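import Cfsg.Agent.Lib.A8A9e

/-! # Recognition of `A₈` and `A₉`

`main`: if `H ≤ G` is isomorphic to `A₈`, the fixed-point-free involutions of `H` are exactly the elements of
`H` conjugate in `G` to `s`, and the centralizers of these elements are inside `H`, then `H = ⊤` or `G ≅ A₉`. -/

namespace Cfsg.Agent.Lib.A8A9

open Cfsg.Agent.Lib.A8A9a Cfsg.Agent.Lib.A8A9b Cfsg.Agent.Lib.A8A9c Cfsg.Agent.Lib.A8A9d Cfsg.Agent.Lib.A8A9e

section

variable {G Ω : Type*} [Group G] [MulAction G Ω] {s : G} {φ : A →* G} {α : Ω} [Finite G]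

theorem case1 (h : Ctx s φ α) (hT : ∀ δ, Th φ α δ → δ = α) : φ.range = ⊤ := by
  apply LL h φ.range (fun a => ⟨a, rfl⟩)
  · intro c hc
    have h1 := hT _ (PhTh h ⟨c, hc, rfl⟩)
    exact (h.st c).1 h1
  · rintro _ ⟨a, rfl⟩ - -
    exact ⟨1, φ.range.one_mem, a, by group⟩

theorem case2 (h : Ctx s φ α) {δ : Ω} (hδ : Th φ α δ) (hδα : δ ≠ α) :
    Nonempty (G ≃* alternatingGroup (Fin 9)) := by
  classical
  obtain ⟨β, hβ, hβα, hy0⟩ := h.W4 hδ hδα y0 y0sq
  obtain ⟨f, hf1, hf2, hf3, hf4⟩ := D6 h hβ hβα hy0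
  obtain ⟨k, hkk, hkα, hkβ, hk⟩ := D7 h hβ hβα hy0 f hf1 hf2 hf3 hf4
  let S9 : Ω → Prop := fun ω => ω = α ∨ ∃ p, f p = ω
  let G1 : Subgroup G :=
    { carrier := {g | ∀ ω, S9 ω ↔ S9 (g • ω)}
      one_mem' := by intro ω; rw [one_smul]
      mul_mem' := by
        intro a b ha hb ω
        rw [mul_smul, hb, ha]
      inv_mem' := by
        intro a ha ω
        rw [ha (a⁻¹ • ω), smul_inv_smul] }
  have mem1 : ∀ g, g ∈ G1 ↔ ∀ ω, S9 ω ↔ S9 (g • ω) := fun g => Iff.rfl
  have hA1 : ∀ a : A, ∀ ω, S9 ω → S9 (φ a • ω) := by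
    rintro a ω (rfl | ⟨p, rfl⟩)
    · left; exact h.mual a
    · right; exact ⟨_, (hf3 a p).symm⟩
  have hA : ∀ a : A, φ a ∈ G1 := by
    intro a ω
    refine ⟨hA1 a ω, fun hω => ?_⟩
    have := hA1 a⁻¹ _ hω
    rwa [map_inv, inv_smul_smul] at this
  have hk1 : ∀ ω, S9 ω → S9 (k • ω) := by
    rintro ω (rfl | ⟨p, rfl⟩)
    · right; exact ⟨_, by rw [hkα, hf4]⟩
    · by_cases hp : p = Sum.inr 3
      · left; rw [hp, hf4, hkβ]
      · obtain ⟨q, hq⟩ := hk p hp
        right; exact ⟨q, hq.symm⟩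
  have hkG : k ∈ G1 := by
    intro ω
    refine ⟨hk1 ω, fun hω => ?_⟩
    have := hk1 _ hω
    rwa [← mul_smul, hkk, one_smul] at this
  have htr1 : ∀ ω, S9 ω → ∃ g ∈ G1, g • α = ω := by
    rintro ω (rfl | ⟨p, rfl⟩)
    · exact ⟨1, G1.one_mem, one_smul _ _⟩
    · obtain ⟨a, ha⟩ := trP p
      refine ⟨φ a * k, G1.mul_mem (hA a) hkG, ?_⟩
      rw [mul_smul, hkα, ← hf4, hf3, ha]
  have hin : ∀ g, S9 (g • α) → g ∈ G1 := by
    intro g hg
    obtain ⟨g1, hg1, hg1'⟩ := htr1 _ hg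
    have h1 : (g1⁻¹ * g) • α = α := by rw [mul_smul, ← hg1', inv_smul_smul]
    obtain ⟨a, ha⟩ := (h.st _).1 h1
    have h2 : g = g1 * φ a := by rw [ha]; group
    rw [h2]
    exact G1.mul_mem hg1 (hA a)
  -- the nine points
  let e0 : Option P → {ω // S9 ω} := fun o => match o with
    | none => ⟨α, Or.inl rfl⟩
    | some p => ⟨f p, Or.inr ⟨p, rfl⟩⟩
  have he0 : Function.Bijective e0 := by
    constructor
    · rintro (_ | p) (_ | q) hpq
      · rfl
      · exact absurd (congrArg Subtype.val hpq).symm (hf2 q)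
      · exact absurd (congrArg Subtype.val hpq) (hf2 p)
      · exact congrArg some (hf1 (congrArg Subtype.val hpq))
    · rintro ⟨ω, rfl | ⟨p, rfl⟩⟩
      · exact ⟨none, rfl⟩
      · exact ⟨some p, rfl⟩
  have hfin : Finite {ω // S9 ω} := Finite.of_surjective e0 he0.2
  haveI := Fintype.ofFinite {ω // S9 ω}
  have hcard9 : Fintype.card {ω // S9 ω} = 9 := by
    rw [← Fintype.card_of_bijective he0]
    simp
  have hTh9 : ∀ ω, Th φ α ω → S9 ω := by
    intro ω hω
    by_cases h1 : ω = α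
    · left; exact h1
    · obtain ⟨v, hv, hve⟩ := h.W5 hβ hβα hy0 hω h1
      right
      exact ⟨_, by rw [hve, ← hf4, hf3]⟩
  have hG1 : G1 = ⊤ := by
    apply LL h G1 hA
    · intro c hc
      exact hin c (hTh9 _ (PhTh h ⟨c, hc, rfl⟩))
    · intro u hu huu hu1
      let σ : Equiv.Perm {ω // S9 ω} :=
        { toFun := fun ω => ⟨u • ω.1, ((mem1 u).1 hu ω.1).1 ω.2⟩
          invFun := fun ω => ⟨u • ω.1, ((mem1 u).1 hu ω.1).1 ω.2⟩
          left_inv := fun ω => by ext; simp [← mul_smul, huu]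
          right_inv := fun ω => by ext; simp [← mul_smul, huu] }
      have hσ : σ ^ (2 ^ 1) = 1 := by
        rw [pow_one, sq]
        ext ω
        simp [σ, ← mul_smul, huu]
      haveI : Fact (Nat.Prime 2) := ⟨Nat.prime_two⟩
      obtain ⟨⟨γ, hγ⟩, hγf⟩ := Equiv.Perm.exists_fixed_point_of_prime (p := 2) (n := 1)
        (by rw [hcard9]; omega) (σ := σ) hσ
      have hγu : u • γ = γ := congrArg Subtype.val hγf
      obtain ⟨g1, hg1, rfl⟩ := htr1 γ hγ
      have h1 : (g1⁻¹ * u * g1) • α = α := by rw [mul_smul, mul_smul, hγu, inv_smul_smul]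
      obtain ⟨a, ha⟩ := (h.st _).1 h1
      exact ⟨g1, hg1, a, by rw [ha]; group⟩
  have hall : ∀ ω, S9 ω := by
    intro ω
    obtain ⟨g, rfl⟩ := h.tr ω
    have hg : g ∈ G1 := by rw [hG1]; exact Subgroup.mem_top g
    exact ((mem1 g).1 hg α).1 (Or.inl rfl)
  let eΩ : {ω // S9 ω} ≃ Ω := Equiv.subtypeUnivEquiv hall
  haveI : Fintype Ω := Fintype.ofEquiv _ eΩ
  have hcΩ : Fintype.card Ω = 9 := by rw [← Fintype.card_congr eΩ, hcard9]
  haveI : MulAction.IsPretransitive G Ω := by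
    rw [MulAction.isPretransitive_iff_base α]
    exact h.tr
  have hst : MulAction.stabilizer G α = φ.range := by
    ext g
    rw [MulAction.mem_stabilizer_iff, h.st]; rfl
  haveI : Nontrivial P := ⟨Sum.inl 0, Sum.inr 0, by simp⟩
  have hcG : Nat.card G = 9 * 20160 := by
    have h1 := Subgroup.index_mul_card (MulAction.stabilizer G α)
    rw [MulAction.index_stabilizer_of_transitive, hst, Nat.card_eq_fintype_card (α := Ω), hcΩ,
      ← Nat.card_congr (MonoidHom.ofInjective h.inj).toEquiv, nat_card_alternatingGroup] at h1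
    rw [← h1]
    have : Nat.card P = 8 := by rw [Nat.card_eq_fintype_card]; simp
    rw [this]
    rfl
  have hinj : Function.Injective (MulAction.toPermHom G Ω) := by
    rw [injective_iff_map_eq_one]
    intro g hg
    have hg' : ∀ ω : Ω, g • ω = ω := fun ω => congrArg (fun τ : Equiv.Perm Ω => τ ω) hg
    obtain ⟨a, rfl⟩ := (h.st g).1 (hg' α)
    have ha : a = 1 := by
      ext1
      refine Equiv.ext fun p => ?_
      apply hf1
      rw [← hf3]; exact hg' _
    rw [ha, map_one]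
  have hidx : (MulAction.toPermHom G Ω).range.index = 2 := by
    have h1 := Subgroup.index_mul_card (MulAction.toPermHom G Ω).range
    rw [← Nat.card_congr (MonoidHom.ofInjective hinj).toEquiv, hcG, Nat.card_perm,
      Nat.card_eq_fintype_card (α := Ω), hcΩ] at h1
    have h2 : Nat.factorial 9 = 362880 := by decide
    rw [h2] at h1
    omega
  have hR := Equiv.Perm.eq_alternatingGroup_of_index_eq_two hidx
  exact ⟨(MonoidHom.ofInjective hinj).trans ((MulEquiv.subgroupCongr hR).trans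
    (Equiv.altCongrHom (Fintype.equivFinOfCardEq hcΩ)))⟩

end

theorem main {G : Type*} [Group G] [Finite G] (s : G) (H : Subgroup G) (psi : H ≃* alternatingGroup (Fin 8))
    (h1 : ∀ h : H, IsConj s (h : G) ↔ ((psi h : Equiv.Perm (Fin 8)) * psi h = 1 ∧ ∀ i, (psi h : Equiv.Perm (Fin 8)) i ≠ i))
    (h2 : ∀ h : H, IsConj s (h : G) → Subgroup.centralizer ({(h : G)} : Set G) ≤ H) :
    H = ⊤ ∨ Nonempty (G ≃* alternatingGroup (Fin 9)) := by
  let e8 : P ≃ Fin 8 := finSumFinEquiv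
  let E : A ≃* H := (Equiv.altCongrHom e8).trans psi.symm
  let φ : A →* G := H.subtype.comp E.toMonoidHom
  have hφ : ∀ a, φ a = (E a : G) := fun a => rfl
  have hpsi : ∀ a : A, psi (E a) = Equiv.altCongrHom e8 a := fun a => psi.apply_symm_apply _
  have hrange : φ.range = H := by
    ext g
    constructor
    · rintro ⟨a, rfl⟩
      exact (E a).2
    · intro hg
      exact ⟨E.symm ⟨g, hg⟩, by rw [hφ, MulEquiv.apply_symm_apply]⟩
  have hctx : Ctx (Ω := G ⧸ H) s φ ((1 : G) : G ⧸ H) := by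
    refine ⟨?_, ?_, ?_, ?_, ?_⟩
    · intro a b hab
      exact E.injective (Subtype.ext hab)
    · intro a
      rw [hφ, h1 (E a), hpsi]
      constructor
      · rintro ⟨h3, h4⟩
        have h5 : Equiv.altCongrHom e8 (a * a) = Equiv.altCongrHom e8 1 := by
          rw [map_mul, map_one]; exact Subtype.ext h3
        refine ⟨(Equiv.altCongrHom e8).injective h5, fun p hp => h4 (e8 p) ?_⟩
        show e8 ((a : Equiv.Perm P) (e8.symm (e8 p))) = e8 p
        rw [Equiv.symm_apply_apply, hp]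
      · rintro ⟨h3, h4⟩
        refine ⟨?_, fun i hi => h4 (e8.symm i) ?_⟩
        · have h5 : Equiv.altCongrHom e8 (a * a) = Equiv.altCongrHom e8 1 := by rw [h3]
          rw [map_mul, map_one] at h5
          exact congrArg Subtype.val h5
        · have hi' : e8 ((a : Equiv.Perm P) (e8.symm i)) = i := hi
          rw [Equiv.eq_symm_apply]; exact hi'
    · intro a ha g hg
      have h3 := h2 (E a) ha (Subgroup.mem_centralizer_singleton_iff.2 hg)
      have h4 : g ∈ φ.range := by rw [hrange]; exact h3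
      exact h4
    · intro g
      have h3 : g • ((1 : G) : G ⧸ H) = ((1 : G) : G ⧸ H) ↔ g ∈ H := by
        rw [MulAction.Quotient.smul_coe, smul_eq_mul, mul_one, QuotientGroup.eq, mul_one, H.inv_mem_iff]
      rw [h3, ← hrange]; rfl
    · intro ω
      induction ω using QuotientGroup.induction_on with
      | H g => exact ⟨g, by rw [MulAction.Quotient.smul_coe, smul_eq_mul, mul_one]⟩
  by_cases hT : ∀ δ, Th φ ((1 : G) : G ⧸ H) δ → δ = ((1 : G) : G ⧸ H)
  · left
    rw [← hrange]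
    exact case1 hctx hT
  · right
    push Not at hT
    obtain ⟨δ, hδ, hδα⟩ := hT
    exact case2 hctx hδ hδα

end Cfsg.Agent.Lib.A8A9
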