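import Mathlib

/-! Permutation facts on `Fin 4 ⊕ Fin 4` for the `A₈`/`A₉` recognition. -/

namespace Cfsg.Agent.Lib.A8A9a

open Equiv Equiv.Perm

abbrev P := Fin 4 ⊕ Fin 4
abbrev A := alternatingGroup P
abbrev B := alternatingGroup (Fin 4)
abbrev S4 := Equiv.Perm (Fin 4)

/-- block permutation -/
abbrev bl (x y : S4) : Equiv.Perm P := Equiv.Perm.sumCongr x y

theorem bl_mul (x y x' y' : S4) : bl x y * bl x' y' = bl (x * x') (y * y') := by
  simp [bl]

theorem bl_one : bl 1 1 = 1 := by simp [bl]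

theorem bl_inj {x y x' y' : S4} (h : bl x y = bl x' y') : x = x' ∧ y = y' := by
  constructor
  · ext i
    have := congrArg (fun f => f (Sum.inl i)) h
    simp [bl] at this
    rw [this]
  · ext i
    have := congrArg (fun f => f (Sum.inr i)) h
    simp [bl] at this
    rw [this]

theorem bl_sign (x y : S4) : Equiv.Perm.sign (bl x y) = Equiv.Perm.sign x * Equiv.Perm.sign y := by
  simp [bl]

def mu : B →* A where
  toFun x := ⟨bl x 1, by simp [Equiv.Perm.mem_alternatingGroup, bl, Equiv.Perm.mem_alternatingGroup.1 x.2]⟩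
  map_one' := by ext1; simp [bl]
  map_mul' x y := by ext1; simp [bl]

def nu : B →* A where
  toFun x := ⟨bl 1 x, by simp [Equiv.Perm.mem_alternatingGroup, bl, Equiv.Perm.mem_alternatingGroup.1 x.2]⟩
  map_one' := by ext1; simp [bl]
  map_mul' x y := by ext1; simp [bl]

theorem mu_coe (x : B) : ((mu x : A) : Equiv.Perm P) = bl x 1 := rfl
theorem nu_coe (x : B) : ((nu x : A) : Equiv.Perm P) = bl 1 x := rfl
theorem mn_coe (x y : B) : ((mu x * nu y : A) : Equiv.Perm P) = bl x y := by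
  simp [mu_coe, nu_coe, bl]

def z0 : B := ⟨swap 0 1 * swap 2 3, Equiv.Perm.mem_alternatingGroup.2 (by decide)⟩
def v0 : B := ⟨swap 0 2 * swap 1 3, Equiv.Perm.mem_alternatingGroup.2 (by decide)⟩
def w0 : B := ⟨swap 0 3 * swap 1 2, Equiv.Perm.mem_alternatingGroup.2 (by decide)⟩

theorem t1 : ∀ x : B, x * z0 = z0 * x → x * x = 1 := by decide +kernel
theorem t2 : ∀ x : S4, x * z0 = z0 * x → x * v0 = v0 * x → (x * x = 1 ∧ Equiv.Perm.sign x = 1) := by decide +kernel
theorem t3 : ∀ y y' : B, y * y ≠ 1 → y' * y' ≠ 1 → ∃ c : B, c * y * c⁻¹ = y' ∨ c * y * c⁻¹ = y'⁻¹ := by decide +kernel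
theorem t4 : Fintype.card {p : B × B // p.1 * p.1 = 1 ∧ p.2 * p.2 = 1 ∧ p.2 ≠ 1} = 12 := by decide +kernel
theorem t5 : Fintype.card {p : S4 × S4 // Equiv.Perm.sign p.1 = Equiv.Perm.sign p.2 ∧ p.1 * z0 = z0 * p.1 ∧ p.1 * swap 0 1 = swap 0 1 * p.1 ∧ p.2 * swap 0 1 = swap 0 1 * p.2} = 8 := by decide +kernel

theorem conjA (a b : A) (ha : a * a = 1) (ha1 : a ≠ 1)
    (hc : IsConj (a : Equiv.Perm P) (b : Equiv.Perm P)) : ∃ c : A, c * a * c⁻¹ = b := by
  obtain ⟨c, hc⟩ := isConj_iff.1 hc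
  rcases Int.units_eq_one_or (Equiv.Perm.sign c) with h | h
  · exact ⟨⟨c, Equiv.Perm.mem_alternatingGroup.2 h⟩, by ext1; exact hc⟩
  · have ha2 : (a : Equiv.Perm P) ≠ 1 := fun h => ha1 (by ext1; exact h)
    obtain ⟨p, hp⟩ : ∃ p, (a : Equiv.Perm P) p ≠ p := by
      by_contra h
      push Not at h
      exact ha2 (Equiv.ext h)
    have haa : (a : Equiv.Perm P) ((a : Equiv.Perm P) p) = p := by
      have := congrArg (fun f : A => (f : Equiv.Perm P) p) ha
      simpa using this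
    have hcomm : (a : Equiv.Perm P) * swap p ((a : Equiv.Perm P) p) * (a : Equiv.Perm P)⁻¹
        = swap p ((a : Equiv.Perm P) p) := by
      rw [← Equiv.swap_apply_apply, haa, Equiv.swap_comm]
    have hcomm' : swap p ((a : Equiv.Perm P) p) * (a : Equiv.Perm P) * (swap p ((a : Equiv.Perm P) p))⁻¹ = (a : Equiv.Perm P) := by
      have h1 : (a : Equiv.Perm P) * swap p ((a : Equiv.Perm P) p) = swap p ((a : Equiv.Perm P) p) * a := by
        exact mul_inv_eq_iff_eq_mul.1 hcomm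
      rw [← h1]; group
    have hs : Equiv.Perm.sign (c * swap p ((a : Equiv.Perm P) p)) = 1 := by
      rw [Equiv.Perm.sign_mul, h, Equiv.Perm.sign_swap hp.symm]; rfl
    refine ⟨⟨c * swap p ((a : Equiv.Perm P) p), Equiv.Perm.mem_alternatingGroup.2 hs⟩, ?_⟩
    ext1
    show c * swap p ((a : Equiv.Perm P) p) * (a : Equiv.Perm P) * (c * swap p ((a : Equiv.Perm P) p))⁻¹ = b
    calc c * swap p ((a : Equiv.Perm P) p) * (a : Equiv.Perm P) * (c * swap p ((a : Equiv.Perm P) p))⁻¹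
        = c * (swap p ((a : Equiv.Perm P) p) * (a : Equiv.Perm P) * (swap p ((a : Equiv.Perm P) p))⁻¹) * c⁻¹ := by group
      _ = b := by rw [hcomm', hc]

theorem ct (a : A) (ha : a * a = 1) (ha1 : a ≠ 1) :
    ∃ m, (a : Equiv.Perm P).cycleType = Multiset.replicate m 2 ∧ (a : Equiv.Perm P).support.card = 2 * m ∧ (m = 2 ∨ m = 4) := by
  have ha2 : (a : Equiv.Perm P) ≠ 1 := fun h => ha1 (by ext1; exact h)
  have haa : (a : Equiv.Perm P) ^ 2 = 1 := by
    rw [sq]; exact congrArg (fun f : A => (f : Equiv.Perm P)) ha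
  have ho : orderOf (a : Equiv.Perm P) = 2 := orderOf_eq_prime haa ha2
  obtain ⟨n, hn⟩ := Equiv.Perm.cycleType_prime_order (σ := (a : Equiv.Perm P)) (by rw [ho]; exact Nat.prime_two)
  rw [ho] at hn
  have hs := Equiv.Perm.sum_cycleType (a : Equiv.Perm P)
  rw [hn, Multiset.sum_replicate, smul_eq_mul] at hs
  have hle : (a : Equiv.Perm P).support.card ≤ 8 := by
    have := Finset.card_le_univ (a : Equiv.Perm P).support
    simpa using this
  have hsign := Equiv.Perm.sign_of_cycleType (a : Equiv.Perm P)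
  rw [hn, Multiset.sum_replicate, Multiset.card_replicate, smul_eq_mul,
    Equiv.Perm.mem_alternatingGroup.1 a.2] at hsign
  refine ⟨n + 1, hn, by omega, ?_⟩
  have h4 : n < 4 := by omega
  interval_cases n
  · exfalso; revert hsign; decide
  · left; rfl
  · exfalso; revert hsign; decide
  · right; rfl

theorem ct_fpf (a : A) (ha : a * a = 1) (hf : ∀ p, (a : Equiv.Perm P) p ≠ p) :
    (a : Equiv.Perm P).cycleType = Multiset.replicate 4 2 := by
  have ha1 : a ≠ 1 := by
    rintro rfl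
    exact hf (Sum.inl 0) rfl
  obtain ⟨m, h1, h2, h3⟩ := ct a ha ha1
  have hsup : (a : Equiv.Perm P).support = Finset.univ := by
    ext p; simp [hf p]
  rw [hsup] at h2
  have : (Finset.univ : Finset P).card = 8 := by simp
  have hm : m = 4 := by omega
  rw [h1, hm]

theorem ct_nfpf (a : A) (ha : a * a = 1) (ha1 : a ≠ 1) (hf : ∃ p, (a : Equiv.Perm P) p = p) :
    (a : Equiv.Perm P).cycleType = Multiset.replicate 2 2 := by
  obtain ⟨m, h1, h2, h3⟩ := ct a ha ha1
  obtain ⟨p, hp⟩ := hf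
  have hsup : (a : Equiv.Perm P).support.card < 8 := by
    have h8 : (Finset.univ : Finset P).card = 8 := by simp
    rw [← h8]
    apply Finset.card_lt_card
    rw [Finset.ssubset_univ_iff]
    intro h
    have : p ∈ (a : Equiv.Perm P).support := by rw [h]; simp
    rw [Equiv.Perm.mem_support] at this
    exact this hp
  have hm : m = 2 := by omega
  rw [h1, hm]

theorem conj_fpf (a b : A) (ha : a * a = 1) (hfa : ∀ p, (a : Equiv.Perm P) p ≠ p)
    (hb : b * b = 1) (hfb : ∀ p, (b : Equiv.Perm P) p ≠ p) : ∃ c : A, c * a * c⁻¹ = b := by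
  have ha1 : a ≠ 1 := by
    rintro rfl
    exact hfa (Sum.inl 0) rfl
  refine conjA a b ha ha1 ?_
  rw [Equiv.Perm.isConj_iff_cycleType_eq, ct_fpf a ha hfa, ct_fpf b hb hfb]

theorem conj_nfpf (a b : A) (ha : a * a = 1) (ha1 : a ≠ 1) (hfa : ∃ p, (a : Equiv.Perm P) p = p)
    (hb : b * b = 1) (hb1 : b ≠ 1) (hfb : ∃ p, (b : Equiv.Perm P) p = p) : ∃ c : A, c * a * c⁻¹ = b := by
  refine conjA a b ha ha1 ?_
  rw [Equiv.Perm.isConj_iff_cycleType_eq, ct_nfpf a ha ha1 hfa, ct_nfpf b hb hb1 hfb]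

/-- commuting with `μ z0` forces block form -/
theorem comm_bl (a : A) (h : a * mu z0 = mu z0 * a) :
    ∃ x y : S4, (a : Equiv.Perm P) = bl x y ∧ x * z0 = z0 * x ∧ Equiv.Perm.sign x = Equiv.Perm.sign y := by
  have h' : ∀ p, (a : Equiv.Perm P) (bl z0 1 p) = bl z0 1 ((a : Equiv.Perm P) p) := by
    intro p
    exact congrArg (fun f : A => (f : Equiv.Perm P) p) h
  have hinl : ∀ i : Fin 4, bl z0 1 (Sum.inl i) ≠ Sum.inl i := by decide
  have hinr : ∀ i : Fin 4, bl z0 1 (Sum.inr i) = Sum.inr i := by decide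
  have hm : Set.MapsTo (a : Equiv.Perm P) (Set.range Sum.inl) (Set.range Sum.inl) := by
    rintro _ ⟨i, rfl⟩
    rcases hq : (a : Equiv.Perm P) (Sum.inl i) with j | j
    · exact ⟨j, rfl⟩
    · exfalso
      have h1 := h' (Sum.inl i)
      rw [hq, hinr, ← hq] at h1
      exact hinl i ((a : Equiv.Perm P).injective h1)
  obtain ⟨⟨x, y⟩, hxy⟩ := Equiv.Perm.mem_sumCongrHom_range_of_perm_mapsTo_inl hm
  have hxy' : (a : Equiv.Perm P) = bl x y := hxy.symm
  refine ⟨x, y, hxy', ?_, ?_⟩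
  · have h2 : bl x y * bl z0 1 = bl z0 1 * bl x y := by
      rw [← hxy']; exact congrArg (fun f : A => (f : Equiv.Perm P)) h
    rw [bl_mul, bl_mul] at h2
    exact (bl_inj h2).1
  · have h3 := Equiv.Perm.mem_alternatingGroup.1 a.2
    rw [hxy', bl_sign] at h3
    have := mul_eq_one_iff_eq_inv.1 h3
    rw [this]
    exact (Int.units_inv_eq_self _)

end Cfsg.Agent.Lib.A8A9a
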