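import Cfsg.Agent.Lib.A8A9a

/-! Counting lemma and the abstract set-up for the `A₈`/`A₉` recognition. -/

namespace Cfsg.Agent.Lib.A8A9b

open Cfsg.Agent.Lib.A8A9a

theorem count {G Ω : Type*} [Group G] [Finite G] [MulAction G Ω] (W : Subgroup G) (a : Ω) (J : Set G)
    (hconj : ∀ j ∈ J, ∀ w ∈ W, w * j * w⁻¹ ∈ J) (hJW : ∀ j ∈ J, j ∈ W)
    (huniq : ∀ j ∈ J, ∀ w ∈ W, ∀ w' ∈ W, j • (w • a) = w • a → j • (w' • a) = w' • a → w • a = w' • a)
    (hex : ∀ j ∈ J, ∃ w ∈ W, j • (w • a) = w • a)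
    (n : ℕ) (hn : n ≤ Nat.card {j // j ∈ J ∧ j • a = a})
    (hle : ∀ w ∈ W, w • a ≠ a → Nat.card {j // j ∈ J ∧ j • a = w • a} ≤ n) :
    ∀ w ∈ W, n ≤ Nat.card {j // j ∈ J ∧ j • a = w • a} := by
  classical
  haveI := Fintype.ofFinite G
  set JF : Finset G := Finset.univ.filter (· ∈ J) with hJF
  set TF : Finset Ω := (Finset.univ.filter (· ∈ W)).image (· • a) with hTF
  have memT : ∀ ω, ω ∈ TF ↔ ∃ w ∈ W, w • a = ω := by
    intro ω; simp [hTF]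
  have memJ : ∀ j, j ∈ JF ↔ j ∈ J := by
    intro j; simp [hJF]
  have hcard : ∀ δ, Nat.card {j // j ∈ J ∧ j • a = δ} = (JF.filter (fun j => j • a = δ)).card := by
    intro δ
    rw [Nat.card_eq_fintype_card, Fintype.card_subtype]
    congr 1
    ext j; simp [hJF]
  have h1 : JF.card = ∑ δ ∈ TF, (JF.filter (fun j => j • a = δ)).card := by
    apply Finset.card_eq_sum_card_fiberwise
    intro j hj
    exact (memT _).2 ⟨j, hJW j ((memJ j).1 hj), rfl⟩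
  let fp : G → Ω := fun j => if h : j ∈ J then (hex j h).choose • a else a
  have hfp : ∀ j, j ∈ J → ∃ w ∈ W, fp j = w • a ∧ j • (w • a) = w • a := by
    intro j h
    refine ⟨(hex j h).choose, (hex j h).choose_spec.1, ?_, (hex j h).choose_spec.2⟩
    simp only [fp, dif_pos h]
  have hfp' : ∀ j, j ∈ J → ∀ w ∈ W, (fp j = w • a ↔ j • (w • a) = w • a) := by
    intro j h w hw
    obtain ⟨w', hw', h1, h2⟩ := hfp j h
    constructor
    · intro h3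
      rw [← h3, h1, h2]
    · intro h3
      rw [h1]
      exact huniq j h w' hw' w hw h2 h3
  have h2 : JF.card = ∑ γ ∈ TF, (JF.filter (fun j => fp j = γ)).card := by
    apply Finset.card_eq_sum_card_fiberwise
    intro j hj
    obtain ⟨w, hw, h3, -⟩ := hfp j ((memJ j).1 hj)
    exact (memT _).2 ⟨w, hw, h3.symm⟩
  have h3 : ∀ γ ∈ TF, (JF.filter (fun j => fp j = γ)).card = (JF.filter (fun j => j • a = a)).card := by
    intro γ hγ
    obtain ⟨w, hw, rfl⟩ := (memT _).1 hγ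
    apply Finset.card_nbij' (fun j => w⁻¹ * j * w) (fun j => w * j * w⁻¹)
    · intro j hj
      simp only [Finset.coe_filter, Set.mem_setOf_eq, memJ] at hj ⊢
      have := (hfp' j hj.1 w hw).1 hj.2
      refine ⟨?_, ?_⟩
      · have := hconj j hj.1 w⁻¹ (W.inv_mem hw)
        rwa [inv_inv] at this
      · rw [mul_smul, mul_smul, this, inv_smul_smul]
    · intro j hj
      simp only [Finset.coe_filter, Set.mem_setOf_eq, memJ] at hj ⊢
      refine ⟨hconj j hj.1 w hw, ?_⟩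
      refine (hfp' _ (hconj j hj.1 w hw) w hw).2 ?_
      rw [mul_smul, mul_smul, inv_smul_smul, hj.2]
    · intro j _
      simp [mul_assoc]
    · intro j _
      simp [mul_assoc]
  intro w hw
  by_contra hlt
  push Not at hlt
  rw [hcard] at hlt hn
  have h4 : ∑ δ ∈ TF, (JF.filter (fun j => j • a = δ)).card < ∑ δ ∈ TF, (JF.filter (fun j => j • a = a)).card := by
    apply Finset.sum_lt_sum
    · intro δ hδ
      obtain ⟨w', hw', rfl⟩ := (memT _).1 hδ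
      by_cases h : w' • a = a
      · rw [h]
      · have := hle w' hw' h
        rw [hcard] at this
        omega
    · exact ⟨w • a, (memT _).2 ⟨w, hw, rfl⟩, by omega⟩
  rw [← h1, h2, Finset.sum_congr rfl h3] at h4
  exact lt_irrefl _ h4

/-- the standing hypotheses -/
structure Ctx {G Ω : Type*} [Group G] [MulAction G Ω] (s : G) (φ : A →* G) (α : Ω) : Prop where
  inj : Function.Injective φ
  hS : ∀ a : A, IsConj s (φ a) ↔ (a * a = 1 ∧ ∀ p, (a : Equiv.Perm P) p ≠ p)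
  hC : ∀ a : A, IsConj s (φ a) → ∀ g : G, g * φ a = φ a * g → ∃ b, φ b = g
  st : ∀ g : G, g • α = α ↔ ∃ a, φ a = g
  tr : ∀ ω : Ω, ∃ g : G, g • α = ω

theorem d1 : ∀ x : B, x * x = 1 → x = 1 ∨ x = z0 ∨ x = v0 ∨ x = z0 * v0 := by decide +kernel
theorem d2 : ∀ x : B, x * x = 1 → x ≠ 1 → ∀ i, (x : S4) i ≠ i := by decide +kernel
theorem d3 : ∀ y y' : B, y * z0 * y⁻¹ = y' * z0 * y'⁻¹ → (y⁻¹ * y') * (y⁻¹ * y') = 1 := by decide +kernel
theorem d4 : ∀ y : B, (y * z0 * y⁻¹) * (y * z0 * y⁻¹) = 1 ∧ y * z0 * y⁻¹ ≠ 1 := by decide +kernel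
theorem d5 : Fintype.card {b : B // b * b = 1 ∧ b ≠ 1} = 3 := by decide +kernel
theorem d6 : ∀ y y' : B, y * y ≠ 1 → y' * y' ≠ 1 → (y * y') * (y * y') = 1 ∨ (y * y'⁻¹) * (y * y'⁻¹) = 1 := by decide +kernel
theorem d7 : ∀ y y' : B, y * y ≠ 1 → y' * y * y'⁻¹ ≠ y⁻¹ := by decide +kernel
theorem z0v0 : z0 * z0 = 1 ∧ v0 * v0 = 1 ∧ z0 ≠ 1 ∧ v0 ≠ 1 := by decide +kernel

/-- three-cycle fixing `3` -/
def y0 : B := ⟨Equiv.swap 0 1 * Equiv.swap 1 2, Equiv.Perm.mem_alternatingGroup.2 (by decide)⟩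
theorem y0sq : y0 * y0 ≠ 1 := by decide +kernel
theorem d8 : ∀ y : B, y * y ≠ 1 → ∃ v : B, v * v = 1 ∧ (v * y0 * v⁻¹ = y ∨ v * y0 * v⁻¹ = y⁻¹) := by decide +kernel

theorem munu (x y : B) : mu x * nu y = nu y * mu x := by
  ext1
  show bl x 1 * bl 1 y = bl 1 y * bl x 1
  rw [bl_mul, bl_mul]; simp

theorem mn_inj {x y x' y' : B} (h : mu x * nu y = mu x' * nu y') : x = x' ∧ y = y' := by
  have h1 := congrArg (fun f : A => (f : Equiv.Perm P)) h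
  simp only [mn_coe] at h1
  obtain ⟨h2, h3⟩ := bl_inj h1
  exact ⟨Subtype.ext h2, Subtype.ext h3⟩

theorem nu_inj {y y' : B} (h : nu y = nu y') : y = y' := by
  have : mu 1 * nu y = mu 1 * nu y' := by rw [h]
  exact (mn_inj this).2

section

variable {G Ω : Type*} [Group G] [MulAction G Ω] {s : G} {φ : A →* G} {α : Ω}

theorem Ctx.U (h : Ctx s φ α) (a : A) (ha : IsConj s (φ a)) (ω : Ω) (hω : φ a • ω = ω) : ω = α := by
  obtain ⟨g, rfl⟩ := h.tr ω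
  have h1 : (g⁻¹ * φ a * g) • α = α := by
    rw [mul_smul, mul_smul, hω, inv_smul_smul]
  obtain ⟨b, hb⟩ := (h.st _).1 h1
  have h2 : IsConj s (φ b) := by
    rw [hb]
    refine ha.trans (isConj_iff.2 ⟨g⁻¹, by group⟩)
  obtain ⟨ha1, ha2⟩ := (h.hS a).1 ha
  obtain ⟨hb1, hb2⟩ := (h.hS b).1 h2
  obtain ⟨c, hc⟩ := conj_fpf a b ha1 ha2 hb1 hb2
  have h3 : g * φ c * φ a = φ a * (g * φ c) := by
    rw [← hc] at hb
    have : φ c * φ a * (φ c)⁻¹ = g⁻¹ * φ a * g := by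
      rw [← hb]; simp
    have h4 : φ c * φ a = g⁻¹ * φ a * g * φ c := by
      rw [← this]; group
    rw [mul_assoc, h4]; group
  obtain ⟨d, hd⟩ := h.hC a ha _ h3
  rw [h.st]
  exact ⟨d * c⁻¹, by rw [map_mul, hd, map_inv]; group⟩

theorem Ctx.U' (h : Ctx s φ α) (t : G) (ht : IsConj s t) (ω ω' : Ω) (hω : t • ω = ω) (hω' : t • ω' = ω') :
    ω = ω' := by
  obtain ⟨g, rfl⟩ := h.tr ω
  have h1 : (g⁻¹ * t * g) • α = α := by
    rw [mul_smul, mul_smul, hω, inv_smul_smul]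
  obtain ⟨b, hb⟩ := (h.st _).1 h1
  have h2 : IsConj s (φ b) := by
    rw [hb]
    refine ht.trans (isConj_iff.2 ⟨g⁻¹, by group⟩)
  have h3 := h.U b h2 (g⁻¹ • ω') (by rw [hb, mul_smul, mul_smul, smul_inv_smul, hω'])
  rw [← h3, smul_inv_smul]

theorem Ctx.SE (h : Ctx s φ α) (x y : B) (hx : x * x = 1) (hx1 : x ≠ 1) (hy : y * y = 1) (hy1 : y ≠ 1) :
    IsConj s (φ (mu x * nu y)) := by
  rw [h.hS]
  constructor
  · calc mu x * nu y * (mu x * nu y) = mu x * (nu y * mu x) * nu y := by group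
      _ = mu (x * x) * nu (y * y) := by rw [← munu, map_mul, map_mul]; group
      _ = 1 := by rw [hx, hy, map_one, map_one, mul_one]
  · intro p
    rw [mn_coe]
    rcases p with i | i
    · have := d2 x hx hx1 i
      simpa [bl] using this
    · have := d2 y hy hy1 i
      simpa [bl] using this

theorem Ctx.nSnu (h : Ctx s φ α) (y : B) : ¬ IsConj s (φ (nu y)) := by
  rw [h.hS]
  rintro ⟨-, h2⟩
  exact h2 (Sum.inl 0) (by rw [nu_coe]; simp [bl])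

theorem Ctx.nSmu (h : Ctx s φ α) (y : B) : ¬ IsConj s (φ (mu y)) := by
  rw [h.hS]
  rintro ⟨-, h2⟩
  exact h2 (Sum.inr 0) (by rw [mu_coe]; simp [bl])

variable (φ) in
/-- centralizer of the four-group -/
def W : Subgroup G := Subgroup.centralizer {φ (mu z0), φ (mu v0)}

theorem mem_W {w : G} : w ∈ W φ ↔ w * φ (mu z0) = φ (mu z0) * w ∧ w * φ (mu v0) = φ (mu v0) * w := by
  rw [W, Subgroup.mem_centralizer_iff]
  constructor
  · intro h
    exact ⟨(h _ (by simp)).symm, (h _ (by simp)).symm⟩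
  · rintro ⟨h1, h2⟩ g hg
    rcases hg with rfl | hg
    · exact h1.symm
    · rw [Set.mem_singleton_iff] at hg
      rw [hg]; exact h2.symm

theorem WK {w : G} (hw : w ∈ W φ) (x : B) (hx : x * x = 1) : w * φ (mu x) = φ (mu x) * w := by
  obtain ⟨h1, h2⟩ := mem_W.1 hw
  rcases d1 x hx with rfl | rfl | rfl | rfl
  · simp
  · exact h1
  · exact h2
  · rw [map_mul, map_mul, ← mul_assoc, h1, mul_assoc, h2, mul_assoc]

theorem nuW (y : B) : φ (nu y) ∈ W φ := by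
  rw [mem_W, ← map_mul, ← map_mul, ← map_mul, ← map_mul, munu, munu]
  exact ⟨rfl, rfl⟩

theorem muW (x : B) (hx : x * x = 1) : φ (mu x) ∈ W φ := by
  have h1 : ∀ x : B, x * x = 1 → x * z0 = z0 * x ∧ x * v0 = v0 * x := by decide +kernel
  rw [mem_W, ← map_mul, ← map_mul, ← map_mul, ← map_mul, ← map_mul, ← map_mul, ← map_mul, ← map_mul, (h1 x hx).1, (h1 x hx).2]
  exact ⟨rfl, rfl⟩

theorem Ctx.Wal (h : Ctx s φ α) (w : G) (hw : w ∈ W φ) (hwα : w • α = α) :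
    ∃ x y : B, x * x = 1 ∧ w = φ (mu x * nu y) := by
  obtain ⟨a, rfl⟩ := (h.st w).1 hwα
  obtain ⟨h1, h2⟩ := mem_W.1 hw
  rw [← map_mul, ← map_mul] at h1 h2
  have h1' := h.inj h1
  have h2' := h.inj h2
  obtain ⟨x, y, hxy, hx, hs⟩ := comm_bl a h1'
  have hx2 : x * v0 = v0 * x := by
    have h3 := congrArg (fun f : A => (f : Equiv.Perm P)) h2'
    have h4 : bl x y * bl v0 1 = bl v0 1 * bl x y := by rw [← hxy]; exact h3
    rw [bl_mul, bl_mul] at h4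
    exact (bl_inj h4).1
  obtain ⟨h5, h6⟩ := t2 x hx hx2
  refine ⟨⟨x, Equiv.Perm.mem_alternatingGroup.2 h6⟩, ⟨y, Equiv.Perm.mem_alternatingGroup.2 (hs ▸ h6)⟩, ?_, ?_⟩
  · ext1; exact h5
  · congr 1
    ext1
    rw [mn_coe]; exact hxy

variable (φ α) in
def Th (ω : Ω) : Prop := ∃ w ∈ W φ, w • α = ω

theorem Th_smul {w : G} (hw : w ∈ W φ) {ω : Ω} (h : Th φ α ω) : Th φ α (w • ω) := by
  obtain ⟨w', hw', rfl⟩ := h
  exact ⟨w * w', (W φ).mul_mem hw hw', mul_smul _ _ _⟩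

theorem Th_one : Th φ α α := ⟨1, (W φ).one_mem, one_smul _ _⟩

theorem Ctx.mual (h : Ctx s φ α) (a : A) : φ a • α = α := (h.st _).2 ⟨a, rfl⟩

theorem Ctx.mufix (h : Ctx s φ α) (x : B) (hx : x * x = 1) {ω : Ω} (hω : Th φ α ω) : φ (mu x) • ω = ω := by
  obtain ⟨w, hw, rfl⟩ := hω
  rw [← mul_smul, ← WK hw x hx, mul_smul, h.mual]

theorem Ctx.nufix (h : Ctx s φ α) (y : B) (hy : y * y = 1) (hy1 : y ≠ 1) {ω : Ω} (hω : Th φ α ω)
    (hf : φ (nu y) • ω = ω) : ω = α := by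
  refine h.U (mu z0 * nu y) (h.SE z0 y z0v0.1 z0v0.2.2.1 hy hy1) ω ?_
  rw [map_mul, mul_smul, hf, h.mufix z0 z0v0.1 hω]

variable (φ) in
def J : Set G := {j | ∃ w ∈ W φ, ∃ y : B, y * y = 1 ∧ y ≠ 1 ∧ j = w * φ (nu y) * w⁻¹}

theorem J_W {j : G} (hj : j ∈ J φ) : j ∈ W φ := by
  obtain ⟨w, hw, y, hy, hy1, rfl⟩ := hj
  exact (W φ).mul_mem ((W φ).mul_mem hw (nuW y)) ((W φ).inv_mem hw)

theorem J_sq {j : G} (hj : j ∈ J φ) : j * j = 1 := by
  obtain ⟨w, hw, y, hy, hy1, rfl⟩ := hj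
  calc w * φ (nu y) * w⁻¹ * (w * φ (nu y) * w⁻¹) = w * φ (nu (y * y)) * w⁻¹ := by
        rw [map_mul, map_mul]; group
    _ = 1 := by rw [hy]; simp

theorem Ctx.J_nS (h : Ctx s φ α) {j : G} (hj : j ∈ J φ) : ¬ IsConj s j := by
  obtain ⟨w, hw, y, hy, hy1, rfl⟩ := hj
  intro hc
  exact h.nSnu y (hc.trans (isConj_iff.2 ⟨w⁻¹, by group⟩))

theorem Ctx.J_S (h : Ctx s φ α) {j : G} (hj : j ∈ J φ) (x : B) (hx : x * x = 1) (hx1 : x ≠ 1) :
    IsConj s (φ (mu x) * j) := by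
  obtain ⟨w, hw, y, hy, hy1, rfl⟩ := hj
  refine (h.SE x y hx hx1 hy hy1).trans (isConj_iff.2 ⟨w, ?_⟩)
  rw [map_mul]
  have := WK hw x hx
  calc w * (φ (mu x) * φ (nu y)) * w⁻¹ = (w * φ (mu x)) * φ (nu y) * w⁻¹ := by group
    _ = φ (mu x) * (w * φ (nu y) * w⁻¹) := by rw [this]; group

theorem J_conj : ∀ j ∈ J φ, ∀ w ∈ W φ, w * j * w⁻¹ ∈ J φ := by
  rintro j ⟨w, hw, y, hy, hy1, rfl⟩ w' hw'
  exact ⟨w' * w, (W φ).mul_mem hw' hw, y, hy, hy1, by group⟩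

theorem Ctx.J_uniq (h : Ctx s φ α) {j : G} (hj : j ∈ J φ) {ω ω' : Ω} (hω : Th φ α ω) (hω' : Th φ α ω')
    (h1 : j • ω = ω) (h2 : j • ω' = ω') : ω = ω' := by
  obtain ⟨w, hw, y, hy, hy1, rfl⟩ := hj
  have key : ∀ γ, Th φ α γ → (w * φ (nu y) * w⁻¹) • γ = γ → γ = w • α := by
    intro γ hγ h3
    have h4 : φ (nu y) • (w⁻¹ • γ) = w⁻¹ • γ := by
      rw [mul_smul, mul_smul] at h3
      rw [eq_inv_smul_iff]; exact h3
    have h5 := h.nufix y hy hy1 (Th_smul ((W φ).inv_mem hw) hγ) h4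
    rw [← h5, smul_inv_smul]
  rw [key ω hω h1, key ω' hω' h2]

theorem Ctx.T1 (h : Ctx s φ α) {i j : G} (hi : i ∈ J φ) (hj : j ∈ J φ) {δ : Ω} (hδ : Th φ α δ) (hδα : δ ≠ α)
    (h1 : i • α = δ) (h2 : j • α = δ) :
    ∃ x y : B, x * x = 1 ∧ i * j = φ (mu x * nu y) ∧ φ (nu y) • δ = δ ∧ (y * y = 1 → i = j) := by
  have hi' : i • δ = α := by rw [← h1, ← mul_smul, J_sq hi, one_smul]
  have hj' : j • δ = α := by rw [← h2, ← mul_smul, J_sq hj, one_smul]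
  obtain ⟨x, y, hx, hxy⟩ := h.Wal (i * j) ((W φ).mul_mem (J_W hi) (J_W hj)) (by rw [mul_smul, h2, hi'])
  have h3 : φ (nu y) • δ = δ := by
    have h4 : (i * j) • δ = δ := by rw [mul_smul, hj', h1]
    rw [hxy, munu, map_mul, mul_smul, h.mufix x hx hδ] at h4
    exact h4
  refine ⟨x, y, hx, hxy, h3, fun hy => ?_⟩
  by_cases hy1 : y = 1
  · subst hy1
    rw [map_one, mul_one] at hxy
    by_cases hx1 : x = 1
    · subst hx1
      rw [map_one, map_one] at hxy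
      have h5 := J_sq hj
      have : i = j⁻¹ := eq_inv_of_mul_eq_one_left hxy
      rw [this]; exact inv_eq_of_mul_eq_one_left h5
    · exfalso
      apply h.J_nS hj
      have h6 : j = φ (mu x) * i := by
        rw [← WK (J_W hi) x hx, ← hxy, ← mul_assoc, J_sq hi, one_mul]
      rw [h6]
      exact h.J_S hi x hx hx1
  · exact absurd (h.nufix y hy hy1 hδ h3) hδα

variable [Finite G]

theorem Ctx.hle (h : Ctx s φ α) : ∀ w ∈ W φ, w • α ≠ α → Nat.card {j // j ∈ J φ ∧ j • α = w • α} ≤ 3 := by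
  intro w hw hne
  rcases isEmpty_or_nonempty {j // j ∈ J φ ∧ j • α = w • α} with he | ⟨⟨i, hi, hiα⟩⟩
  · rw [Nat.card_of_isEmpty]; omega
  have hδ : Th φ α (w • α) := ⟨w, hw, rfl⟩
  have H : ∀ j : {j // j ∈ J φ ∧ j • α = w • α}, ∃ x y : B, x * x = 1 ∧ i * j.1 = φ (mu x * nu y) := by
    rintro ⟨j, hj, hjα⟩
    obtain ⟨x, y, h1, h2, -, -⟩ := h.T1 hi hj hδ hne hiα hjα
    exact ⟨x, y, h1, h2⟩
  choose X Y hX hY using H
  have hinj : Function.Injective (fun j : {j // j ∈ J φ ∧ j • α = w • α} =>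
      (⟨Y j * z0 * (Y j)⁻¹, d4 (Y j)⟩ : {b : B // b * b = 1 ∧ b ≠ 1})) := by
    intro j k hjk
    have h1 : Y j * z0 * (Y j)⁻¹ = Y k * z0 * (Y k)⁻¹ := congrArg Subtype.val hjk
    have h2 := d3 _ _ h1
    obtain ⟨x, y, h3, h4, -, h5⟩ := h.T1 j.2.1 k.2.1 hδ hne j.2.2 k.2.2
    have h6 : j.1 * k.1 = φ (mu ((X j)⁻¹ * X k) * nu ((Y j)⁻¹ * Y k)) := by
      have e1 : j.1 * k.1 = (i * j.1)⁻¹ * (i * k.1) := by
        have : j.1⁻¹ = j.1 := inv_eq_of_mul_eq_one_left (J_sq j.2.1)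
        rw [mul_inv_rev, this]; group
      rw [e1, hY j, hY k, ← map_inv, ← map_mul]
      congr 1
      rw [map_mul, map_mul, map_inv, map_inv, mul_inv_rev]
      have e2 := munu (X j)⁻¹ (Y j)⁻¹
      rw [map_inv, map_inv] at e2
      have e3 : (nu (Y j))⁻¹ * mu (X k) = mu (X k) * (nu (Y j))⁻¹ := by
        rw [← map_inv, munu]
      rw [← e2]
      calc (mu (X j))⁻¹ * (nu (Y j))⁻¹ * (mu (X k) * nu (Y k))
          = (mu (X j))⁻¹ * ((nu (Y j))⁻¹ * mu (X k)) * nu (Y k) := by group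
        _ = _ := by rw [e3]; group
    rw [h4] at h6
    have h7 := mn_inj (h.inj h6)
    have h8 : y * y = 1 := by rw [h7.2]; exact h2
    exact Subtype.ext (h5 h8)
  have := Nat.card_le_card_of_injective _ hinj
  rwa [Nat.card_eq_fintype_card (α := {b : B // b * b = 1 ∧ b ≠ 1}), d5] at this

theorem Ctx.hn (h : Ctx s φ α) : 3 ≤ Nat.card {j // j ∈ J φ ∧ j • α = α} := by
  have hinj : Function.Injective (fun b : {b : B // b * b = 1 ∧ b ≠ 1} =>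
      (⟨φ (nu b.1), ⟨1, (W φ).one_mem, b.1, b.2.1, b.2.2, by group⟩, h.mual _⟩ : {j // j ∈ J φ ∧ j • α = α})) := by
    intro b c hbc
    exact Subtype.ext (nu_inj (h.inj (congrArg Subtype.val hbc)))
  have := Nat.card_le_card_of_injective _ hinj
  rwa [Nat.card_eq_fintype_card (α := {b : B // b * b = 1 ∧ b ≠ 1}), d5] at this

theorem Ctx.T3 (h : Ctx s φ α) {δ : Ω} (hδ : Th φ α δ) : 3 ≤ Nat.card {j // j ∈ J φ ∧ j • α = δ} := by
  obtain ⟨w, hw, rfl⟩ := hδ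
  refine count (W φ) α (J φ) J_conj (fun j hj => J_W hj) ?_ ?_ 3 h.hn h.hle w hw
  · intro j hj w hw w' hw' h1 h2
    exact h.J_uniq hj ⟨w, hw, rfl⟩ ⟨w', hw', rfl⟩ h1 h2
  · rintro j ⟨w, hw, y, hy, hy1, rfl⟩
    refine ⟨w, hw, ?_⟩
    rw [mul_smul, mul_smul, inv_smul_smul, h.mual]

theorem Ctx.T3' (h : Ctx s φ α) {δ : Ω} (hδ : Th φ α δ) : ∃ j ∈ J φ, j • α = δ := by
  have := h.T3 hδ
  have hne : Nonempty {j // j ∈ J φ ∧ j • α = δ} := by
    by_contra hc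
    rw [not_nonempty_iff] at hc
    rw [Nat.card_of_isEmpty] at this
    omega
  obtain ⟨⟨j, hj⟩⟩ := hne
  exact ⟨j, hj⟩

theorem Ctx.W2 (h : Ctx s φ α) {δ : Ω} (hδ : Th φ α δ) (hδα : δ ≠ α) {y y' : B} (hy : y * y ≠ 1)
    (hy' : y' * y' ≠ 1) (h1 : φ (nu y) • δ = δ) (h2 : φ (nu y') • δ = δ) : y' = y ∨ y' = y⁻¹ := by
  rcases d6 y y' hy hy' with h3 | h3
  · right
    by_cases h4 : y * y' = 1
    · exact eq_inv_of_mul_eq_one_right h4
    · exact absurd (h.nufix _ h3 h4 hδ (by rw [map_mul, map_mul, mul_smul, h2, h1])) hδα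
  · left
    by_cases h4 : y * y'⁻¹ = 1
    · exact (mul_inv_eq_one.1 h4).symm
    · refine absurd (h.nufix _ h3 h4 hδ ?_) hδα
      rw [map_mul, map_mul, map_inv, map_inv, mul_smul]
      have : (φ (nu y'))⁻¹ • δ = δ := by rw [inv_smul_eq_iff, h2]
      rw [this, h1]

theorem Ctx.W3a (h : Ctx s φ α) {δ : Ω} (hδ : Th φ α δ) (hδα : δ ≠ α) {i : G} (hi : i ∈ J φ) (hiα : i • α = δ)
    {y : B} (hy : y * y ≠ 1) (h1 : φ (nu y) • δ = δ) : i * φ (nu y) * i⁻¹ = (φ (nu y))⁻¹ := by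
  obtain ⟨j, hji⟩ : ∃ j : {j // j ∈ J φ ∧ j • α = δ}, j ≠ ⟨i, hi, hiα⟩ := by
    have := h.T3 hδ
    haveI : Nontrivial {j // j ∈ J φ ∧ j • α = δ} := Finite.one_lt_card_iff_nontrivial.1 (by omega)
    exact exists_ne _
  obtain ⟨x, y', hx, hxy, h2, h3⟩ := h.T1 hi j.2.1 hδ hδα hiα j.2.2
  have hy' : y' * y' ≠ 1 := fun hc => hji (Subtype.ext (h3 hc).symm)
  have hii : i⁻¹ = i := inv_eq_of_mul_eq_one_left (J_sq hi)
  have hjj : j.1⁻¹ = j.1 := inv_eq_of_mul_eq_one_left (J_sq j.2.1)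
  have key : i * φ (nu y') * i⁻¹ = (φ (nu y'))⁻¹ := by
    have e1 : i * (i * j.1) * i⁻¹ = (i * j.1)⁻¹ := by
      rw [mul_inv_rev, hjj, ← mul_assoc, J_sq hi, one_mul]
    rw [hxy] at e1
    have hxx : (φ (mu x))⁻¹ = φ (mu x) := by
      rw [← map_inv, ← map_inv, inv_eq_of_mul_eq_one_left hx]
    have e2 : i * φ (mu x * nu y') * i⁻¹ = φ (mu x) * (i * φ (nu y') * i⁻¹) := by
      rw [map_mul, ← mul_assoc, WK (J_W hi) x hx]; group
    have e3 : (φ (mu x * nu y'))⁻¹ = φ (mu x) * (φ (nu y'))⁻¹ := by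
      rw [munu, map_mul, mul_inv_rev, hxx]
    rw [e2, e3] at e1
    exact mul_left_cancel e1
  rcases h.W2 hδ hδα hy' hy h2 h1 with rfl | rfl
  · exact key
  · rw [map_inv, map_inv, inv_inv]
    have := congrArg (·⁻¹) key
    simp only [mul_inv_rev, inv_inv] at this
    rw [← mul_assoc] at this
    exact this

theorem Ctx.W3 (h : Ctx s φ α) {δ δ' : Ω} (hδ : Th φ α δ) (hδα : δ ≠ α) (hδ' : Th φ α δ') (hδα' : δ' ≠ α)
    {y : B} (hy : y * y ≠ 1) (h1 : φ (nu y) • δ = δ) (h2 : φ (nu y) • δ' = δ') : δ = δ' := by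
  by_contra hne
  obtain ⟨i, hi, hiα⟩ := h.T3' hδ
  obtain ⟨j, hj, hjα⟩ := h.T3' hδ'
  have hi1 := h.W3a hδ hδα hi hiα hy h1
  have hj1 := h.W3a hδ' hδα' hj hjα hy h2
  have hδ3 : Th φ α (i • δ') := Th_smul (J_W hi) hδ'
  have hii : i⁻¹ = i := inv_eq_of_mul_eq_one_left (J_sq hi)
  have hδ3α : i • δ' ≠ α := by
    intro hc
    apply hne
    have : δ' = i • α := by rw [← hc, ← mul_smul, J_sq hi, one_smul]
    rw [this, hiα]
  have h3 : φ (nu y) • (i • δ') = i • δ' := by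
    have e1 : φ (nu y) * i = i * (φ (nu y))⁻¹ := by
      rw [← hi1]
      calc φ (nu y) * i = (i * i) * φ (nu y) * i := by rw [J_sq hi, one_mul]
        _ = i * (i * φ (nu y) * i⁻¹) := by rw [hii]; simp only [mul_assoc]
    rw [← mul_smul, e1, mul_smul]
    congr 1
    rw [inv_smul_eq_iff, h2]
  obtain ⟨k, hk, hkα⟩ := h.T3' hδ3
  have hk1 := h.W3a hδ3 hδ3α hk hkα hy h3
  have hW : k * i * j ∈ W φ := (W φ).mul_mem ((W φ).mul_mem (J_W hk) (J_W hi)) (J_W hj)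
  obtain ⟨x, y', hx, hxy⟩ := h.Wal _ hW (by
    rw [mul_smul, mul_smul, hjα, ← hkα, ← mul_smul, J_sq hk, one_smul])
  have h4 : (k * i * j) * φ (nu y) * (k * i * j)⁻¹ = (φ (nu y))⁻¹ := by
    calc (k * i * j) * φ (nu y) * (k * i * j)⁻¹ = k * (i * (j * φ (nu y) * j⁻¹) * i⁻¹) * k⁻¹ := by group
      _ = k * (i * φ (nu y) * i⁻¹)⁻¹ * k⁻¹ := by rw [hj1]; group
      _ = (φ (nu y))⁻¹ := by rw [hi1, inv_inv, hk1]
  rw [hxy, ← map_inv, ← map_inv, ← map_mul, ← map_mul] at h4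
  have h5 := h.inj h4
  have h6 : mu x * nu y' * nu y * (mu x * nu y')⁻¹ = nu (y' * y * y'⁻¹) := by
    rw [map_mul, map_mul, map_inv, mul_inv_rev]
    have e1 : (mu x) * (nu y' * nu y * (nu y')⁻¹) = (nu y' * nu y * (nu y')⁻¹) * mu x := by
      have := munu x (y' * y * y'⁻¹)
      rwa [map_mul, map_mul, map_inv] at this
    calc mu x * nu y' * nu y * ((nu y')⁻¹ * (mu x)⁻¹) = (mu x) * (nu y' * nu y * (nu y')⁻¹) * (mu x)⁻¹ := by group
      _ = _ := by rw [e1]; group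
  rw [h6, ← map_inv] at h5
  exact d7 y y' hy (nu_inj h5)

theorem Ctx.W1 (h : Ctx s φ α) {δ : Ω} (hδ : Th φ α δ) (hδα : δ ≠ α) : ∃ y : B, y * y ≠ 1 ∧ φ (nu y) • δ = δ := by
  obtain ⟨i, hi, hiα⟩ := h.T3' hδ
  obtain ⟨j, hji⟩ : ∃ j : {j // j ∈ J φ ∧ j • α = δ}, j ≠ ⟨i, hi, hiα⟩ := by
    have := h.T3 hδ
    haveI : Nontrivial {j // j ∈ J φ ∧ j • α = δ} := Finite.one_lt_card_iff_nontrivial.1 (by omega)
    exact exists_ne _
  obtain ⟨x, y', hx, hxy, h2, h3⟩ := h.T1 hi j.2.1 hδ hδα hiα j.2.2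
  exact ⟨y', fun hc => hji (Subtype.ext (h3 hc).symm), h2⟩

theorem inv_fix {g : G} {ω : Ω} (h : g⁻¹ • ω = ω) : g • ω = ω := by
  rw [inv_smul_eq_iff] at h; exact h.symm

theorem Ctx.W4 (h : Ctx s φ α) {δ : Ω} (hδ : Th φ α δ) (hδα : δ ≠ α) (y' : B) (hy' : y' * y' ≠ 1) :
    ∃ β, Th φ α β ∧ β ≠ α ∧ φ (nu y') • β = β := by
  obtain ⟨y, hy, h1⟩ := h.W1 hδ hδα
  obtain ⟨c, hc⟩ := t3 y y' hy hy'
  refine ⟨φ (nu c) • δ, Th_smul (nuW c) hδ, ?_, ?_⟩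
  · intro he
    apply hδα
    rw [smul_eq_iff_eq_inv_smul, ← map_inv, ← map_inv, h.mual] at he
    exact he
  · have h2 : (φ (nu c) * φ (nu y) * (φ (nu c))⁻¹) • (φ (nu c) • δ) = φ (nu c) • δ := by
      rw [mul_smul, mul_smul, inv_smul_smul, h1]
    rw [← map_mul, ← map_inv, ← map_mul, ← map_mul, ← map_inv, ← map_mul] at h2
    rcases hc with hc | hc
    · rwa [hc] at h2
    · rw [hc, map_inv, map_inv] at h2
      exact inv_fix h2

theorem Ctx.W5 (h : Ctx s φ α) {β δ : Ω} (hβ : Th φ α β) (hβα : β ≠ α) (hy0 : φ (nu y0) • β = β)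
    (hδ : Th φ α δ) (hδα : δ ≠ α) : ∃ v : B, v * v = 1 ∧ δ = φ (nu v) • β := by
  obtain ⟨y, hy, h1⟩ := h.W1 hδ hδα
  obtain ⟨v, hv, hc⟩ := d8 y hy
  refine ⟨v, hv, h.W3 hδ hδα (Th_smul (nuW v) hβ) ?_ hy h1 ?_⟩
  · intro he
    apply hβα
    rw [smul_eq_iff_eq_inv_smul, ← map_inv, ← map_inv, h.mual] at he
    exact he
  · have h2 : (φ (nu v) * φ (nu y0) * (φ (nu v))⁻¹) • (φ (nu v) • β) = φ (nu v) • β := by
      rw [mul_smul, mul_smul, inv_smul_smul, hy0]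
    rw [← map_mul, ← map_inv, ← map_mul, ← map_mul, ← map_inv, ← map_mul] at h2
    rcases hc with hc | hc
    · rwa [hc] at h2
    · rw [hc, map_inv, map_inv] at h2
      exact inv_fix h2

/-- an involution preserving `Θ` has a fixed point there -/
theorem Ctx.odd (h : Ctx s φ α) (j : G) (hj : j * j = 1) (hp : ∀ ω, Th φ α ω → Th φ α (j • ω)) :
    ∃ ω, Th φ α ω ∧ j • ω = ω := by
  classical
  haveI : Finite {ω // Th φ α ω} := by
    have hs : Function.Surjective (fun w : W φ => (⟨w.1 • α, w.1, w.2, rfl⟩ : {ω // Th φ α ω})) := by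
      rintro ⟨ω, w, hw, rfl⟩
      exact ⟨⟨w, hw⟩, rfl⟩
    exact Finite.of_surjective _ hs
  haveI := Fintype.ofFinite {ω // Th φ α ω}
  let mk : ∀ t : G, t * t = 1 → (∀ ω, Th φ α ω → Th φ α (t • ω)) → Equiv.Perm {ω // Th φ α ω} := fun t ht hp =>
    { toFun := fun ω => ⟨t • ω.1, hp _ ω.2⟩
      invFun := fun ω => ⟨t • ω.1, hp _ ω.2⟩
      left_inv := fun ω => by ext; simp [← mul_smul, ht]
      right_inv := fun ω => by ext; simp [← mul_smul, ht] }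
  have hmk : ∀ t ht hp, (mk t ht hp) ^ (2 ^ 1) = 1 := by
    intro t ht hp
    rw [pow_one, sq]
    ext ω
    simp [mk, ← mul_smul, ht]
  haveI : Fact (Nat.Prime 2) := ⟨Nat.prime_two⟩
  have hodd : ¬ 2 ∣ Fintype.card {ω // Th φ α ω} := by
    intro hd
    have hz : φ (nu z0) * φ (nu z0) = 1 := by
      rw [← map_mul, ← map_mul, z0v0.1, map_one, map_one]
    obtain ⟨b, hb1, hb2⟩ := Equiv.Perm.exists_fixed_point_of_prime' (p := 2) (n := 1) hd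
      (σ := mk (φ (nu z0)) hz (fun ω hω => Th_smul (nuW z0) hω)) (hmk _ hz _)
      (a := ⟨α, Th_one⟩) (Subtype.ext (h.mual _))
    apply hb2
    ext
    exact h.nufix z0 z0v0.1 z0v0.2.2.1 b.2 (congrArg Subtype.val hb1)
  obtain ⟨a, ha⟩ := Equiv.Perm.exists_fixed_point_of_prime (p := 2) (n := 1) hodd
      (σ := mk j hj hp) (hmk _ hj hp)
  exact ⟨a.1, a.2, congrArg Subtype.val ha⟩

end


end Cfsg.Agent.Lib.A8A9b
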