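import Cfsg.Agent.Lib.A8A9b

/-! The centralizer of `φ (μ z0)` for the `A₈`/`A₉` recognition. -/

namespace Cfsg.Agent.Lib.A8A9c

open Cfsg.Agent.Lib.A8A9a Cfsg.Agent.Lib.A8A9b

/-- transposition -/
abbrev tt : S4 := Equiv.swap 0 1

def bt : A := ⟨bl tt tt, by rw [Equiv.Perm.mem_alternatingGroup, bl_sign]; decide⟩

theorem bt_coe : ((bt : A) : Equiv.Perm P) = bl tt tt := rfl

set_option synthInstance.maxHeartbeats 400000 in
set_option synthInstance.maxSize 1000 in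
theorem e1 : ∀ x y : S4, Equiv.Perm.sign x = Equiv.Perm.sign y → x * z0 = z0 * x → x * x = 1 → y * y = 1 →
    ((∃ i, x i = i) ∨ (∃ i, y i = i)) → ((∃ i, (x * z0) i = i) ∨ (∃ i, y i = i)) → ¬ (x = 1 ∧ y = 1) → ¬ (x = z0 ∧ y = 1) →
    (x = v0 ∧ y = 1) ∨ (x = z0 * v0 ∧ y = 1) ∨
    ((x = tt ∨ x = Equiv.swap 2 3) ∧ y * y = 1 ∧ Equiv.Perm.sign y = -1) := by decide +kernel
theorem e1a : ∀ x : S4, (x = tt ∨ x = Equiv.swap 2 3) → ∃ e : B, e * e = 1 ∧ (e : S4) * x * (e : S4)⁻¹ = tt := by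
  decide +kernel
theorem e1b : ∀ y : S4, y * y = 1 → Equiv.Perm.sign y = -1 → ∃ e : B, (e : S4) * y * (e : S4)⁻¹ = tt := by
  decide +kernel

theorem e3 : ∀ x : S4, x * z0 = z0 * x → x * tt = tt * x → x * x = 1 →
    (∀ i, x i ≠ i) → x = z0 := by decide +kernel
theorem e3' : ∀ x : S4, x * tt = tt * x → x * x = 1 →
    (∀ i, x i ≠ i) → x = z0 := by decide +kernel
theorem e5 : ∀ y1 y2 : S4, y1 * z0 * y1⁻¹ = v0 → y1 * v0 * y1⁻¹ = z0 → y2 * z0 * y2⁻¹ = v0 →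
    y2 * v0 * y2⁻¹ = w0 → y1 * y2 ≠ y2 * y1 := by decide +kernel
theorem e6 : ∀ y y' : S4, y * z0 * y⁻¹ = y' * z0 * y'⁻¹ → y * v0 * y⁻¹ = y' * v0 * y'⁻¹ →
    (y⁻¹ * y') * (y⁻¹ * y') = 1 ∧ Equiv.Perm.sign (y⁻¹ * y') = 1 := by decide +kernel
theorem e7 : ∀ x : S4, decide (x 0 < x 1) ≠ decide ((x * z0) 0 < (x * z0) 1) := by decide +kernel
theorem e8 : ∀ x : S4, x * z0 = z0 * x → x * v0 = v0 * x ∨ x * v0 * x⁻¹ = z0 * v0 := by decide +kernel
theorem e8' : ∀ x : S4, x * z0 = z0 * x → x * v0 * x⁻¹ = z0 * v0 → Equiv.Perm.sign x = -1 := by decide +kernel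
theorem e9 : ∀ y' : S4, y' * y' = 1 → Equiv.Perm.sign y' = -1 →
    ∃ y : B, y * y ≠ 1 ∧ (y' * (y : S4) = (y : S4) * y' ∨ y' * (y : S4) = (y : S4)⁻¹ * y') := by decide +kernel

abbrev Cl := {p : S4 × S4 // (p.1 * p.1 = 1 ∧ Equiv.Perm.sign p.1 = 1 ∧ p.1 ≠ 1) ∧
  (p.2 * p.2 = 1 ∧ Equiv.Perm.sign p.2 = 1 ∧ p.2 ≠ 1) ∧ p.1 ≠ p.2}
theorem e10 : ∀ y : S4, (((y * z0 * y⁻¹ : S4)) * (y * z0 * y⁻¹ : S4) = 1 ∧ Equiv.Perm.sign (y * z0 * y⁻¹ : S4) = 1 ∧ (y * z0 * y⁻¹ : S4) ≠ 1) ∧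
  ((y * v0 * y⁻¹ : S4) * (y * v0 * y⁻¹ : S4) = 1 ∧ Equiv.Perm.sign (y * v0 * y⁻¹ : S4) = 1 ∧ (y * v0 * y⁻¹ : S4) ≠ 1) ∧
  (y * z0 * y⁻¹ : S4) ≠ (y * v0 * y⁻¹ : S4) := by decide +kernel
theorem e11 : Fintype.card (Cl × Bool) = 12 := by decide +kernel
theorem e12 : ∀ x : B, x * x = 1 → x * z0 = z0 * x := by decide +kernel
theorem e13 : Fintype.card ({x : B // x * x = 1} × {b : B // b * b = 1 ∧ b ≠ 1}) = 12 := by decide +kernel

section

variable {G Ω : Type*} [Group G] [MulAction G Ω] {s : G} {φ : A →* G} {α : Ω}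

variable (φ) in
def Cz : Subgroup G := Subgroup.centralizer {φ (mu z0)}

theorem mem_Cz {c : G} : c ∈ Cz φ ↔ c * φ (mu z0) = φ (mu z0) * c := by
  rw [Cz, Subgroup.mem_centralizer_singleton_iff]

theorem W_Cz {w : G} (hw : w ∈ W φ) : w ∈ Cz φ := mem_Cz.2 (mem_W.1 hw).1

theorem Ctx_conjz (h : Ctx s φ α) (a : A) (ha : a * a = 1) (ha1 : a ≠ 1) (hn : ¬ IsConj s (φ a)) :
    ∃ c : A, c * mu z0 * c⁻¹ = a := by
  refine conj_nfpf (mu z0) a ?_ ?_ ⟨Sum.inr 0, ?_⟩ ha ha1 ?_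
  · rw [← map_mul, z0v0.1, map_one]
  · intro hc
    have h1 : mu z0 * nu 1 = mu 1 * nu 1 := by rw [hc]; simp
    exact z0v0.2.2.1 (mn_inj h1).1
  · rw [mu_coe]; simp [bl]
  · by_contra hc
    push Not at hc
    exact hn ((h.hS a).2 ⟨ha, hc⟩)

/-- conjugates of `φ μ z0` in the range are `A`-conjugates -/
theorem Ctx_fixz (h : Ctx s φ α) (u : G) (hu : IsConj (φ (mu z0)) u) (b : A) (hb : φ b = u) :
    ∃ c : A, c * mu z0 * c⁻¹ = b := by
  obtain ⟨g, hg⟩ := isConj_iff.1 hu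
  have hzz : φ (mu z0) * φ (mu z0) = 1 := by rw [← map_mul, ← map_mul, z0v0.1, map_one, map_one]
  have hz1 : φ (mu z0) ≠ 1 := by
    intro hc
    have h1 : mu z0 * nu 1 = mu 1 * nu 1 := by
      apply h.inj; simp [hc]
    exact z0v0.2.2.1 (mn_inj h1).1
  apply Ctx_conjz h b
  · apply h.inj
    rw [map_mul, hb, ← hg, map_one]
    calc g * φ (mu z0) * g⁻¹ * (g * φ (mu z0) * g⁻¹) = g * (φ (mu z0) * φ (mu z0)) * g⁻¹ := by group
      _ = 1 := by rw [hzz]; group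
  · rintro rfl
    rw [map_one] at hb
    rw [← hb, mul_inv_eq_one] at hg
    exact hz1 (by simpa using hg)
  · intro hc
    rw [hb] at hc
    exact h.nSmu z0 (hc.trans hu.symm)

variable [Finite G]

theorem card_KB : Nat.card (Subgroup.centralizer ({z0} : Set B)) = 4 := by
  have h1 : ∀ x : B, x ∈ Subgroup.centralizer ({z0} : Set B) ↔ x * z0 = z0 * x := fun x =>
    Subgroup.mem_centralizer_singleton_iff
  rw [Nat.card_congr (Equiv.subtypeEquivRight h1), Nat.card_eq_fintype_card]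
  decide +kernel

theorem card_E : Nat.card (Subgroup.centralizer ({mu z0, bt} : Set A)) = 8 := by
  have hm : ∀ a : A, a ∈ Subgroup.centralizer ({mu z0, bt} : Set A) ↔ a * mu z0 = mu z0 * a ∧ a * bt = bt * a := by
    intro a
    rw [Subgroup.mem_centralizer_iff]
    constructor
    · intro h
      exact ⟨(h _ (by simp)).symm, (h _ (by simp)).symm⟩
    · rintro ⟨h1, h2⟩ g hg
      rcases hg with rfl | hg
      · exact h1.symm
      · rw [Set.mem_singleton_iff] at hg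
        rw [hg]; exact h2.symm
  rw [← t5, ← Nat.card_eq_fintype_card]
  symm
  let f : {p : S4 × S4 // Equiv.Perm.sign p.1 = Equiv.Perm.sign p.2 ∧ p.1 * z0 = z0 * p.1 ∧ p.1 * Equiv.swap 0 1 = Equiv.swap 0 1 * p.1 ∧ p.2 * Equiv.swap 0 1 = Equiv.swap 0 1 * p.2} → Subgroup.centralizer ({mu z0, bt} : Set A) :=
    fun p => ⟨⟨bl p.1.1 p.1.2, by
      rw [Equiv.Perm.mem_alternatingGroup, bl_sign, p.2.1]; exact Int.units_mul_self _⟩, by
      rw [hm]
      constructor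
      · ext1
        show bl p.1.1 p.1.2 * bl z0 1 = bl z0 1 * bl p.1.1 p.1.2
        rw [bl_mul, bl_mul, p.2.2.1, one_mul, mul_one]
      · ext1
        show bl p.1.1 p.1.2 * bl tt tt = bl tt tt * bl p.1.1 p.1.2
        rw [bl_mul, bl_mul, p.2.2.2.1, p.2.2.2.2]⟩
  refine Nat.card_congr (Equiv.ofBijective f ⟨?_, ?_⟩)
  · intro p q hpq
    have h1 : bl p.1.1 p.1.2 = bl q.1.1 q.1.2 := congrArg (fun a => ((a.1 : A) : Equiv.Perm P)) hpq
    obtain ⟨h2, h3⟩ := bl_inj h1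
    exact Subtype.ext (Prod.ext h2 h3)
  · rintro ⟨a, ha⟩
    obtain ⟨h1, h2⟩ := (hm a).1 ha
    obtain ⟨x, y, hxy, hx, hs⟩ := comm_bl a h1
    have h3 : bl x y * bl tt tt = bl tt tt * bl x y := by
      rw [← hxy]; exact congrArg (fun f : A => (f : Equiv.Perm P)) h2
    rw [bl_mul, bl_mul] at h3
    obtain ⟨h4, h5⟩ := bl_inj h3
    refine ⟨⟨(x, y), hs, hx, h4, h5⟩, ?_⟩
    ext1; ext1
    exact hxy.symm

theorem Ctx_V2 (h : Ctx s φ α) (g : G) (hg : g ∈ Cz φ) (hb : g⁻¹ * φ (mu v0) * g = φ bt) : False := by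
  have hgz : g⁻¹ * φ (mu z0) * g = φ (mu z0) := by
    rw [mul_assoc, ← mem_Cz.1 hg]; group
  set Q : Subgroup G := Subgroup.centralizer {φ (mu z0), φ bt} with hQ
  have mem_Q : ∀ q, q ∈ Q ↔ q * φ (mu z0) = φ (mu z0) * q ∧ q * φ bt = φ bt * q := by
    intro q
    rw [hQ, Subgroup.mem_centralizer_iff]
    constructor
    · intro h
      exact ⟨(h _ (by simp)).symm, (h _ (by simp)).symm⟩
    · rintro ⟨h1, h2⟩ g hg
      rcases hg with rfl | hg
      · exact h1.symm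
      · rw [Set.mem_singleton_iff] at hg
        rw [hg]; exact h2.symm
  have hWQ : ∀ w ∈ W φ, g⁻¹ * w * g ∈ Q := by
    intro w hw
    obtain ⟨h1, h2⟩ := mem_W.1 hw
    rw [mem_Q]
    constructor
    · rw [← hgz]
      calc g⁻¹ * w * g * (g⁻¹ * φ (mu z0) * g) = g⁻¹ * (w * φ (mu z0)) * g := by group
        _ = _ := by rw [h1]; group
    · rw [← hb]
      calc g⁻¹ * w * g * (g⁻¹ * φ (mu v0) * g) = g⁻¹ * (w * φ (mu v0)) * g := by group
        _ = _ := by rw [h2]; group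
  have hKB : ∀ x : Subgroup.centralizer ({z0} : Set B), x.1 * x.1 = 1 := fun x =>
    t1 x.1 (Subgroup.mem_centralizer_singleton_iff.1 x.2)
  have h16 : 2 ^ (3 + 1) ∣ Nat.card Q := by
    let f : Subgroup.centralizer ({z0} : Set B) × Subgroup.centralizer ({z0} : Set B) →* Q :=
      { toFun := fun p => ⟨g⁻¹ * φ (mu p.1.1 * nu p.2.1) * g, hWQ _ (by
            rw [map_mul]; exact (W φ).mul_mem (muW _ (hKB _)) (nuW _))⟩
        map_one' := by ext; simp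
        map_mul' := by
          rintro ⟨⟨x, hx⟩, ⟨y, hy⟩⟩ ⟨⟨x', hx'⟩, ⟨y', hy'⟩⟩
          ext
          simp only [Prod.mk_mul_mk, MulMemClass.mk_mul_mk, map_mul]
          have h1 : φ (nu y) * φ (mu x') = φ (mu x') * φ (nu y) := by
            rw [← map_mul, ← map_mul, munu]
          calc g⁻¹ * (φ (mu x) * φ (mu x') * (φ (nu y) * φ (nu y'))) * g
              = g⁻¹ * (φ (mu x) * (φ (mu x') * φ (nu y)) * φ (nu y')) * g := by group
            _ = _ := by rw [← h1]; group }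
    have hf : Function.Injective f := by
      rintro ⟨⟨x, hx⟩, ⟨y, hy⟩⟩ ⟨⟨x', hx'⟩, ⟨y', hy'⟩⟩ hxy
      have h1 : g⁻¹ * φ (mu x * nu y) * g = g⁻¹ * φ (mu x' * nu y') * g := congrArg Subtype.val hxy
      have h2 := mn_inj (h.inj (mul_left_cancel (mul_right_cancel h1)))
      obtain ⟨rfl, rfl⟩ := h2
      rfl
    have h2 := Subgroup.card_dvd_of_injective f hf
    rw [Nat.card_prod, card_KB] at h2
    exact h2
  set E := Subgroup.centralizer ({mu z0, bt} : Set A) with hE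
  have mem_E : ∀ a : A, a ∈ E ↔ a * mu z0 = mu z0 * a ∧ a * bt = bt * a := by
    intro a
    rw [hE, Subgroup.mem_centralizer_iff]
    constructor
    · intro h
      exact ⟨(h _ (by simp)).symm, (h _ (by simp)).symm⟩
    · rintro ⟨h1, h2⟩ g hg
      rcases hg with rfl | hg
      · exact h1.symm
      · rw [Set.mem_singleton_iff] at hg
        rw [hg]; exact h2.symm
  have hEQ : E.map φ ≤ Q := by
    rintro _ ⟨a, ha, rfl⟩
    obtain ⟨h1, h2⟩ := (mem_E a).1 ha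
    rw [mem_Q, ← map_mul, ← map_mul, ← map_mul, ← map_mul, h1, h2]
    exact ⟨rfl, rfl⟩
  have hcard : Nat.card ((E.map φ).subgroupOf Q) = 2 ^ 3 := by
    rw [Nat.card_congr (Subgroup.subgroupOfEquivOfLe hEQ).toEquiv,
      ← Nat.card_congr (Subgroup.equivMapOfInjective E φ h.inj).toEquiv]
    exact card_E
  haveI : Fact (Nat.Prime 2) := ⟨Nat.prime_two⟩
  have h3 := Sylow.prime_pow_dvd_card_normalizer (p := 2) (n := 3) h16 hcard
  have hs' : mu z0 * nu z0 ∈ E := by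
    rw [mem_E]
    constructor
    · rw [mul_assoc, ← munu z0 z0]
    · ext1
      show bl z0 1 * bl 1 z0 * bl tt tt = bl tt tt * (bl z0 1 * bl 1 z0)
      rw [bl_mul, bl_mul, bl_mul]
      have : ∀ x : S4, x = z0 → x * tt = tt * x := by decide +kernel
      rw [mul_one, one_mul, this _ rfl]
  have hle : Subgroup.normalizer ((E.map φ).subgroupOf Q) ≤ (E.map φ).subgroupOf Q := by
    intro n hn
    rw [Subgroup.mem_normalizer_iff] at hn
    have h4 := (hn ⟨φ (mu z0 * nu z0), hEQ ⟨_, hs', rfl⟩⟩).1 (by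
      rw [Subgroup.mem_subgroupOf]; exact ⟨_, hs', rfl⟩)
    rw [Subgroup.mem_subgroupOf] at h4
    obtain ⟨e, he, hee⟩ := h4
    have hee' : φ e = n.1 * φ (mu z0 * nu z0) * n.1⁻¹ := hee
    have h5 : IsConj s (φ e) := by
      rw [hee']
      exact (h.SE z0 z0 z0v0.1 z0v0.2.2.1 z0v0.1 z0v0.2.2.1).trans (isConj_iff.2 ⟨n.1, rfl⟩)
    obtain ⟨h6, h7⟩ := (h.hS e).1 h5
    obtain ⟨h8, h9⟩ := (mem_E e).1 he
    obtain ⟨x, y, hxy, hx, hs⟩ := comm_bl e h8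
    have h10 : bl x y * bl tt tt = bl tt tt * bl x y := by
      rw [← hxy]; exact congrArg (fun f : A => (f : Equiv.Perm P)) h9
    rw [bl_mul, bl_mul] at h10
    obtain ⟨h11, h12⟩ := bl_inj h10
    have h13 : bl x y * bl x y = bl 1 1 := by
      rw [← hxy, bl_one]; exact congrArg (fun f : A => (f : Equiv.Perm P)) h6
    rw [bl_mul] at h13
    obtain ⟨h14, h15⟩ := bl_inj h13
    have hx0 : x = z0 := e3 x hx h11 h14 (fun i hi => h7 (Sum.inl i) (by rw [hxy]; simp [bl, hi]))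
    have hy0 : y = z0 := e3' y h12 h15 (fun i hi => h7 (Sum.inr i) (by rw [hxy]; simp [bl, hi]))
    have h16 : e = mu z0 * nu z0 := by
      ext1
      rw [hxy, mn_coe, hx0, hy0]
    have h17 : n.1 * φ (mu z0 * nu z0) = φ (mu z0 * nu z0) * n.1 := by
      rw [h16] at hee'
      nth_rw 2 [hee']
      group
    obtain ⟨b, hb⟩ := h.hC _ (h.SE z0 z0 z0v0.1 z0v0.2.2.1 z0v0.1 z0v0.2.2.1) n.1 h17
    rw [Subgroup.mem_subgroupOf]
    refine ⟨b, ?_, hb⟩
    obtain ⟨h18, h19⟩ := (mem_Q n.1).1 n.2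
    rw [← hb, ← map_mul, ← map_mul] at h18 h19
    exact (mem_E b).2 ⟨h.inj h18, h.inj h19⟩
  have h4 := Subgroup.card_le_of_le hle
  rw [hcard] at h4
  have h5 := Nat.le_of_dvd Nat.card_pos h3
  omega

theorem Ctx_V1 (h : Ctx s φ α) (δ : Ω) (h1 : φ (mu z0) • δ = δ) (h2 : φ (mu v0) • δ = δ) : Th φ α δ := by
  obtain ⟨g, rfl⟩ := h.tr δ
  have h3 : (g⁻¹ * φ (mu z0) * g) • α = α := by
    rw [mul_smul, mul_smul, h1, inv_smul_smul]
  obtain ⟨a, ha⟩ := (h.st _).1 h3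
  obtain ⟨c, hc⟩ := Ctx_fixz h _ (isConj_iff.2 ⟨g⁻¹, by group⟩) a ha
  -- replace g
  have hgα : g • α = (g * φ c) • α := by rw [mul_smul, h.mual]
  rw [hgα] at h1 h2 ⊢
  have hk : g * φ c ∈ Cz φ := by
    rw [mem_Cz]
    have : φ c * φ (mu z0) * (φ c)⁻¹ = g⁻¹ * φ (mu z0) * g := by rw [← ha, ← hc]; simp
    calc g * φ c * φ (mu z0) = g * (φ c * φ (mu z0) * (φ c)⁻¹) * φ c := by group
      _ = _ := by rw [this]; group
  generalize g * φ c = k at hk h1 h2 ⊢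
  have hkz : k⁻¹ * φ (mu z0) * k = φ (mu z0) := by
    rw [mul_assoc, ← mem_Cz.1 hk]; group
  have h4 : (k⁻¹ * φ (mu v0) * k) • α = α := by
    rw [mul_smul, mul_smul, h2, inv_smul_smul]
  obtain ⟨b, hb⟩ := (h.st _).1 h4
  have hvz : mu v0 * mu z0 = mu z0 * mu v0 := by
    rw [← map_mul, ← map_mul, e12 v0 z0v0.2.1]
  have hbz : b * mu z0 = mu z0 * b := by
    apply h.inj
    rw [map_mul, map_mul, hb, ← hkz]
    calc k⁻¹ * φ (mu v0) * k * (k⁻¹ * φ (mu z0) * k) = k⁻¹ * (φ (mu v0 * mu z0)) * k := by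
          rw [map_mul]; group
      _ = _ := by rw [hvz, map_mul]; group
  obtain ⟨x, y, hxy, hx, hs⟩ := comm_bl b hbz
  have hbb : b * b = 1 := by
    apply h.inj
    rw [map_mul, hb, map_one]
    calc k⁻¹ * φ (mu v0) * k * (k⁻¹ * φ (mu v0) * k) = k⁻¹ * φ (mu (v0 * v0)) * k := by
          rw [map_mul, map_mul]; group
      _ = 1 := by rw [z0v0.2.1]; simp
  have h5 : bl x y * bl x y = bl 1 1 := by
    rw [← hxy, bl_one]; exact congrArg (fun f : A => (f : Equiv.Perm P)) hbb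
  rw [bl_mul] at h5
  obtain ⟨hxx, hyy⟩ := bl_inj h5
  have hnS : ∀ x : B, ¬ IsConj s (k⁻¹ * φ (mu x) * k) := by
    intro x hc
    exact h.nSmu x (hc.trans (isConj_iff.2 ⟨k, by group⟩))
  have h6 : (∃ i, x i = i) ∨ (∃ i, y i = i) := by
    by_contra hc
    push Not at hc
    apply hnS v0
    rw [← hb]
    refine (h.hS b).2 ⟨hbb, ?_⟩
    rintro (i | i)
    · rw [hxy]; simpa [bl] using hc.1 i
    · rw [hxy]; simpa [bl] using hc.2 i
  have hbz' : φ (b * mu z0) = k⁻¹ * φ (mu (v0 * z0)) * k := by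
    rw [map_mul, hb, ← hkz, map_mul, map_mul]; group
  have hbzc : ((b * mu z0 : A) : Equiv.Perm P) = bl (x * z0) y := by
    show (b : Equiv.Perm P) * bl z0 1 = _
    rw [hxy, bl_mul, mul_one]
  have h7 : (∃ i, (x * z0) i = i) ∨ (∃ i, y i = i) := by
    by_contra hc
    push Not at hc
    apply hnS (v0 * z0)
    rw [← hbz']
    refine (h.hS _).2 ⟨?_, ?_⟩
    · rw [mul_assoc, ← mul_assoc (mu z0), ← hbz, mul_assoc, ← map_mul, z0v0.1, map_one, mul_one, hbb]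
    · rintro (i | i)
      · rw [hbzc]; simpa [bl] using hc.1 i
      · rw [hbzc]; simpa [bl] using hc.2 i
  have h8 : ¬ (x = 1 ∧ y = 1) := by
    rintro ⟨rfl, rfl⟩
    have h9 : b = 1 := by ext1; rw [hxy, bl_one]; rfl
    rw [h9, map_one] at hb
    have h10 : φ (mu v0) = 1 := by
      calc φ (mu v0) = k * (k⁻¹ * φ (mu v0) * k) * k⁻¹ := by group
        _ = 1 := by rw [← hb]; group
    have h11 : mu v0 * nu 1 = mu 1 * nu 1 := by apply h.inj; simp [h10]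
    exact z0v0.2.2.2 (mn_inj h11).1
  have h9 : ¬ (x = z0 ∧ y = 1) := by
    rintro ⟨rfl, rfl⟩
    have h10 : b = mu z0 := by ext1; exact hxy
    rw [h10, ← hkz] at hb
    have h11 := mul_left_cancel (mul_right_cancel hb)
    have h12 : mu z0 * nu 1 = mu v0 * nu 1 := by rw [h.inj h11]
    have h13 := (mn_inj h12).1
    revert h13
    decide +kernel
  rcases e1 x y hs hx hxx hyy h6 h7 h8 h9 with ⟨rfl, rfl⟩ | ⟨rfl, rfl⟩ | ⟨hx3, hy3, hy4⟩
  · have h10 : b = mu v0 := by ext1; exact hxy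
    refine ⟨k, mem_W.2 ⟨mem_Cz.1 hk, ?_⟩, rfl⟩
    rw [h10] at hb
    nth_rw 1 [hb]
    group
  · have h10 : b * bt = bt * mu v0 := by
      ext1
      show (b : Equiv.Perm P) * bl tt tt = bl tt tt * bl v0 1
      rw [hxy, bl_mul, bl_mul]
      have : (z0 : S4) * v0 * tt = tt * v0 := by decide +kernel
      rw [this, one_mul, mul_one]
    have h11 : bt * mu z0 = mu z0 * bt := by
      ext1
      show bl tt tt * bl z0 1 = bl z0 1 * bl tt tt
      rw [bl_mul, bl_mul]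
      have : tt * (z0 : S4) = z0 * tt := by decide +kernel
      rw [this, one_mul, mul_one]
    refine ⟨k * φ bt, mem_W.2 ⟨?_, ?_⟩, by rw [mul_smul, h.mual]⟩
    · rw [mul_assoc, ← map_mul, h11, map_mul, ← mul_assoc, mem_Cz.1 hk, mul_assoc]
    · have e : φ (mu v0) = k * φ b * k⁻¹ := by rw [hb]; group
      calc k * φ bt * φ (mu v0) = k * φ (bt * mu v0) := by rw [map_mul, mul_assoc]
        _ = (k * φ b * k⁻¹) * (k * φ bt) := by rw [← h10, map_mul]; group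
        _ = _ := by rw [← e]
  · exfalso
    obtain ⟨f1, hf1, hf1x⟩ := e1a x hx3
    obtain ⟨f2, hf2y⟩ := e1b y hy3 hy4
    have hbe : (mu f1 * nu f2) * b * (mu f1 * nu f2)⁻¹ = bt := by
      rw [mul_inv_eq_iff_eq_mul]
      ext1
      show (bl f1 1 * bl 1 f2) * (b : Equiv.Perm P) = bl tt tt * (bl f1 1 * bl 1 f2)
      have h20 : (f2 : S4) * y = tt * f2 := mul_inv_eq_iff_eq_mul.1 hf2y
      have h21 : (f1 : S4) * x = tt * f1 := mul_inv_eq_iff_eq_mul.1 hf1x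
      rw [hxy, bl_mul, bl_mul, bl_mul, mul_one, one_mul, h20, h21]
    refine Ctx_V2 h (k * (φ (mu f1 * nu f2))⁻¹) ?_ ?_
    · refine (Cz φ).mul_mem hk ((Cz φ).inv_mem ?_)
      rw [map_mul]
      exact (Cz φ).mul_mem (W_Cz (muW f1 hf1)) (W_Cz (nuW f2))
    · rw [← hbe, map_mul _ (mu f1 * nu f2 * b), map_mul _ (mu f1 * nu f2), map_inv, hb]
      group

end

end Cfsg.Agent.Lib.A8A9c
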