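import Cfsg.Agent.Lib.A8A9c

/-! The orbit of the centralizer of `φ (μ z0)` for the `A₈`/`A₉` recognition. -/

namespace Cfsg.Agent.Lib.A8A9d

open Cfsg.Agent.Lib.A8A9a Cfsg.Agent.Lib.A8A9b Cfsg.Agent.Lib.A8A9c

section

variable {G Ω : Type*} [Group G] [MulAction G Ω] {s : G} {φ : A →* G} {α : Ω}

variable (φ α) in
def Ph (ω : Ω) : Prop := ∃ c ∈ Cz φ, c • α = ω

theorem Ph_smul {w : G} (hw : w ∈ Cz φ) {ω : Ω} (h : Ph φ α ω) : Ph φ α (w • ω) := by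
  obtain ⟨w', hw', rfl⟩ := h
  exact ⟨w * w', (Cz φ).mul_mem hw hw', mul_smul _ _ _⟩

theorem Ph_one : Ph φ α α := ⟨1, (Cz φ).one_mem, one_smul _ _⟩

theorem Th_Ph {ω : Ω} (h : Th φ α ω) : Ph φ α ω := by
  obtain ⟨w, hw, rfl⟩ := h
  exact ⟨w, W_Cz hw, rfl⟩

theorem zfix (h : Ctx s φ α) {ω : Ω} (hω : Ph φ α ω) : φ (mu z0) • ω = ω := by
  obtain ⟨w, hw, rfl⟩ := hω
  rw [← mul_smul, ← mem_Cz.1 hw, mul_smul, h.mual]

variable (φ) in
def J' : Set G := {j | ∃ c ∈ Cz φ, ∃ x y : B, x * x = 1 ∧ y * y = 1 ∧ y ≠ 1 ∧ j = c * φ (mu x * nu y) * c⁻¹}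

theorem J'_C {j : G} (hj : j ∈ J' φ) : j ∈ Cz φ := by
  obtain ⟨w, hw, x, y, hx, hy, hy1, rfl⟩ := hj
  refine (Cz φ).mul_mem ((Cz φ).mul_mem hw ?_) ((Cz φ).inv_mem hw)
  rw [map_mul]
  exact (Cz φ).mul_mem (W_Cz (muW x hx)) (W_Cz (nuW y))

theorem mnsq (x y : B) (hx : x * x = 1) (hy : y * y = 1) : (mu x * nu y) * (mu x * nu y) = 1 := by
  calc mu x * nu y * (mu x * nu y) = mu x * (nu y * mu x) * nu y := by group
    _ = mu (x * x) * nu (y * y) := by rw [← munu, map_mul, map_mul]; group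
    _ = 1 := by rw [hx, hy, map_one, map_one, mul_one]

theorem J'_sq {j : G} (hj : j ∈ J' φ) : j * j = 1 := by
  obtain ⟨w, hw, x, y, hx, hy, hy1, rfl⟩ := hj
  calc w * φ (mu x * nu y) * w⁻¹ * (w * φ (mu x * nu y) * w⁻¹)
      = w * φ ((mu x * nu y) * (mu x * nu y)) * w⁻¹ := by
        rw [map_mul _ (mu x * nu y)]; group
    _ = 1 := by rw [mnsq x y hx hy]; simp

theorem J'_conj : ∀ j ∈ J' φ, ∀ w ∈ Cz φ, w * j * w⁻¹ ∈ J' φ := by
  rintro j ⟨w, hw, x, y, hx, hy, hy1, rfl⟩ w' hw'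
  exact ⟨w' * w, (Cz φ).mul_mem hw' hw, x, y, hx, hy, hy1, by group⟩

theorem zkill (h : Ctx s φ α) (x y : B) (hx : x * x = 1) (hy : y * y = 1) (hy1 : y ≠ 1) {γ : Ω}
    (hγ : φ (mu z0) • γ = γ) (hf : φ (mu x * nu y) • γ = γ) : γ = α := by
  by_cases hx1 : x = 1
  · subst hx1
    refine h.U (mu z0 * nu y) (h.SE z0 y z0v0.1 z0v0.2.2.1 hy hy1) γ ?_
    rw [map_one, one_mul] at hf
    rw [map_mul, mul_smul, hf, hγ]
  · exact h.U _ (h.SE x y hx hx1 hy hy1) γ hf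

theorem J'_uniq (h : Ctx s φ α) {j : G} (hj : j ∈ J' φ) {ω ω' : Ω} (hω : Ph φ α ω) (hω' : Ph φ α ω')
    (h1 : j • ω = ω) (h2 : j • ω' = ω') : ω = ω' := by
  obtain ⟨w, hw, x, y, hx, hy, hy1, rfl⟩ := hj
  have key : ∀ γ, Ph φ α γ → (w * φ (mu x * nu y) * w⁻¹) • γ = γ → γ = w • α := by
    intro γ hγ h3
    have h4 : φ (mu x * nu y) • (w⁻¹ • γ) = w⁻¹ • γ := by
      rw [mul_smul, mul_smul] at h3
      rw [eq_inv_smul_iff]; exact h3
    have h5 := zkill h x y hx hy hy1 (zfix h (Ph_smul ((Cz φ).inv_mem hw) hγ)) h4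
    rw [← h5, smul_inv_smul]
  rw [key ω hω h1, key ω' hω' h2]

theorem T1' (h : Ctx s φ α) {i j : G} (hi : i ∈ J' φ) (hj : j ∈ J' φ) {δ : Ω}
    (h1 : i • α = δ) (h2 : j • α = δ) :
    ∃ a : A, a * mu z0 = mu z0 * a ∧ i * j = φ a ∧ φ a • δ = δ := by
  have hi' : i • δ = α := by rw [← h1, ← mul_smul, J'_sq hi, one_smul]
  have hj' : j • δ = α := by rw [← h2, ← mul_smul, J'_sq hj, one_smul]
  obtain ⟨a, ha⟩ := (h.st (i * j)).1 (by rw [mul_smul, h2, hi'])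
  have h3 := mem_Cz.1 ((Cz φ).mul_mem (J'_C hi) (J'_C hj))
  rw [← ha, ← map_mul, ← map_mul] at h3
  exact ⟨a, h.inj h3, ha.symm, by rw [ha, mul_smul, hj', h1]⟩

variable [Finite G]

theorem nTh (h : Ctx s φ α) {δ : Ω} (hδ : Ph φ α δ) (hn : ¬ Th φ α δ) (a : A)
    (ha : φ a • δ = δ) (x y : S4) (hxy : (a : Equiv.Perm P) = bl x y) (hx : x * z0 = z0 * x)
    (hs : Equiv.Perm.sign x = Equiv.Perm.sign y) (hy : y * y = 1) (hys : Equiv.Perm.sign y = 1) :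
    y = 1 ∧ (x = 1 ∨ x = z0) := by
  have hz := zfix h hδ
  have hδα : δ ≠ α := fun he => hn (he ▸ Th_one)
  let X : B := ⟨x, Equiv.Perm.mem_alternatingGroup.2 (by rw [hs, hys])⟩
  let Y : B := ⟨y, Equiv.Perm.mem_alternatingGroup.2 hys⟩
  have hX : X * X = 1 := t1 X (Subtype.ext hx)
  have hY : Y * Y = 1 := Subtype.ext hy
  have haXY : a = mu X * nu Y := by
    ext1; rw [mn_coe]; exact hxy
  have hY1 : Y = 1 := by
    by_contra hY1
    rw [haXY] at ha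
    exact hδα (zkill h X Y hX hY hY1 hz ha)
  rw [haXY, hY1, map_one, mul_one] at ha
  refine ⟨congrArg Subtype.val hY1, ?_⟩
  rcases d1 X hX with h1 | h1 | h1 | h1
  · left; exact congrArg Subtype.val h1
  · right; exact congrArg Subtype.val h1
  · exfalso
    rw [h1] at ha
    exact hn (Ctx_V1 h δ hz ha)
  · exfalso
    rw [h1, map_mul, map_mul, mul_smul] at ha
    have h2 : φ (mu v0) • δ = δ := by
      have h3 : φ (mu z0) • (φ (mu z0) • φ (mu v0) • δ) = φ (mu z0) • δ := congrArg (φ (mu z0) • ·) ha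
      rw [← mul_smul, ← map_mul, ← map_mul, z0v0.1, map_one, map_one, one_smul, hz] at h3
      exact h3
    exact hn (Ctx_V1 h δ hz h2)

theorem few (h : Ctx s φ α) {δ : Ω} (hδ : Ph φ α δ) (hn : ¬ Th φ α δ) :
    Nat.card {j // j ∈ J' φ ∧ j • α = δ} < 12 := by
  by_contra hge
  push Not at hge
  have hne : Nonempty {j // j ∈ J' φ ∧ j • α = δ} := by
    by_contra hc
    rw [not_nonempty_iff] at hc
    rw [Nat.card_of_isEmpty] at hge
    omega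
  obtain ⟨⟨i, hi, hiα⟩⟩ := hne
  have H : ∀ j : {j // j ∈ J' φ ∧ j • α = δ}, ∃ a : {a : A // a * mu z0 = mu z0 * a ∧ φ a • δ = δ}, i * j.1 = φ a.1 := by
    rintro ⟨j, hj, hjα⟩
    obtain ⟨a, h1, h2, h3⟩ := T1' h hi hj hiα hjα
    exact ⟨⟨a, h1, h3⟩, h2⟩
  choose F hF using H
  have hFinj : Function.Injective F := by
    intro j k hjk
    have h1 := hF j
    rw [hjk, ← hF k] at h1
    exact Subtype.ext (mul_left_cancel h1)
  have H2 : ∀ a : {a : A // a * mu z0 = mu z0 * a ∧ φ a • δ = δ}, ∃ p : S4 × S4, ((a.1 : A) : Equiv.Perm P) = bl p.1 p.2 ∧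
      p.1 * z0 = z0 * p.1 ∧ Equiv.Perm.sign p.1 = Equiv.Perm.sign p.2 := by
    rintro ⟨a, ha1, ha2⟩
    obtain ⟨x, y, h1, h2, h3⟩ := comm_bl a ha1
    exact ⟨(x, y), h1, h2, h3⟩
  choose p hp1 hp2 hp3 using H2
  let K : {a : A // a * mu z0 = mu z0 * a ∧ φ a • δ = δ} → Cl × Bool := fun a =>
    (⟨((p a).2 * z0 * (p a).2⁻¹, (p a).2 * v0 * (p a).2⁻¹), e10 (p a).2⟩, decide ((p a).1 0 < (p a).1 1))
  have hKinj : Function.Injective K := by
    intro a b hab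
    have h1 : (p a).2 * z0 * (p a).2⁻¹ = (p b).2 * z0 * (p b).2⁻¹ := congrArg (fun q => q.1.1.1) hab
    have h2 : (p a).2 * v0 * (p a).2⁻¹ = (p b).2 * v0 * (p b).2⁻¹ := congrArg (fun q => q.1.1.2) hab
    have h3 : decide ((p a).1 0 < (p a).1 1) = decide ((p b).1 0 < (p b).1 1) := congrArg (fun q => q.2) hab
    obtain ⟨h4, h5⟩ := e6 _ _ h1 h2
    have h6 : ((a.1⁻¹ * b.1 : A) : Equiv.Perm P) = bl ((p a).1⁻¹ * (p b).1) ((p a).2⁻¹ * (p b).2) := by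
      show ((a.1 : A) : Equiv.Perm P)⁻¹ * ((b.1 : A) : Equiv.Perm P) = _
      rw [hp1 a, hp1 b, ← bl_mul]
      congr 1
    have h7 : φ (a.1⁻¹ * b.1) • δ = δ := by
      rw [map_mul, mul_smul, b.2.2, map_inv, inv_smul_eq_iff, a.2.2]
    obtain ⟨h8, h9⟩ := nTh h hδ hn _ h7 _ _ h6 (by
      have h10 := hp2 a
      have h11 := hp2 b
      rw [mul_assoc, h11, ← mul_assoc, ← mul_assoc]
      congr 1
      rw [inv_mul_eq_iff_eq_mul, ← mul_assoc, h10, mul_assoc, mul_inv_cancel, mul_one]) (by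
      rw [Equiv.Perm.sign_mul, Equiv.Perm.sign_mul, Equiv.Perm.sign_inv, Equiv.Perm.sign_inv, hp3 a, hp3 b]) h4 h5
    rcases h9 with h9 | h9
    · rw [h8, h9, bl_one] at h6
      have h10 : a.1⁻¹ * b.1 = 1 := by ext1; exact h6
      exact Subtype.ext (inv_mul_eq_one.1 h10)
    · exfalso
      rw [inv_mul_eq_iff_eq_mul] at h9
      rw [h9] at h3
      exact e7 _ h3
  have c1 := Nat.card_le_card_of_injective F hFinj
  have c2 := Nat.card_le_card_of_injective K hKinj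
  have c3 : Nat.card (Cl × Bool) = 12 := by rw [Nat.card_eq_fintype_card, e11]
  rw [c3] at c2
  have hFb : Function.Bijective F := hFinj.bijective_of_nat_card_le (by omega)
  have hKb : Function.Bijective K := hKinj.bijective_of_nat_card_le (by omega)
  have hinv : ∀ a : {a : A // a * mu z0 = mu z0 * a ∧ φ a • δ = δ}, i * φ a.1 * i = (φ a.1)⁻¹ := by
    intro a
    obtain ⟨j, rfl⟩ := hFb.2 a
    rw [← hF j, ← mul_assoc, J'_sq hi, one_mul, mul_inv_rev]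
    have e1 : j.1⁻¹ = j.1 := inv_eq_of_mul_eq_one_left (J'_sq j.2.1)
    have e2 : i⁻¹ = i := inv_eq_of_mul_eq_one_left (J'_sq hi)
    rw [e1, e2]
  have hvz : (v0 : S4) ≠ z0 := by decide +kernel
  have hvw : (v0 : S4) ≠ w0 := by decide +kernel
  have hz' : ((z0 : S4) * z0 = 1 ∧ Equiv.Perm.sign (z0 : S4) = 1 ∧ (z0 : S4) ≠ 1) := by decide +kernel
  have hv' : ((v0 : S4) * v0 = 1 ∧ Equiv.Perm.sign (v0 : S4) = 1 ∧ (v0 : S4) ≠ 1) := by decide +kernel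
  have hw' : ((w0 : S4) * w0 = 1 ∧ Equiv.Perm.sign (w0 : S4) = 1 ∧ (w0 : S4) ≠ 1) := by decide +kernel
  obtain ⟨a1, ha1⟩ := hKb.2 (⟨((v0 : S4), (z0 : S4)), hv', hz', hvz⟩, true)
  obtain ⟨a2, ha2⟩ := hKb.2 (⟨((v0 : S4), (w0 : S4)), hv', hw', hvw⟩, true)
  have f1 : (p a1).2 * z0 * (p a1).2⁻¹ = v0 := congrArg (fun q => q.1.1.1) ha1
  have f2 : (p a1).2 * v0 * (p a1).2⁻¹ = z0 := congrArg (fun q => q.1.1.2) ha1
  have f3 : (p a2).2 * z0 * (p a2).2⁻¹ = v0 := congrArg (fun q => q.1.1.1) ha2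
  have f4 : (p a2).2 * v0 * (p a2).2⁻¹ = w0 := congrArg (fun q => q.1.1.2) ha2
  apply e5 _ _ f1 f2 f3 f4
  let a3 : {a : A // a * mu z0 = mu z0 * a ∧ φ a • δ = δ} := ⟨a1.1 * a2.1, by
    rw [mul_assoc, a2.2.1, ← mul_assoc, a1.2.1, mul_assoc], by rw [map_mul, mul_smul, a2.2.2, a1.2.2]⟩
  have g1 := hinv a1
  have g2 := hinv a2
  have g3 := hinv a3
  have g4 : φ (a1.1 * a2.1) = φ (a2.1 * a1.1) := by
    have g5 : i * φ a3.1 * i = (i * φ a1.1 * i) * (i * φ a2.1 * i) := by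
      show i * φ (a1.1 * a2.1) * i = _
      rw [map_mul]
      calc i * (φ a1.1 * φ a2.1) * i = i * φ a1.1 * 1 * φ a2.1 * i := by group
        _ = i * φ a1.1 * (i * i) * φ a2.1 * i := by rw [J'_sq hi]
        _ = _ := by group
    rw [g3, g1, g2, ← mul_inv_rev, inv_inj, ← map_mul] at g5
    exact g5
  have g6 := h.inj g4
  have g7 : bl ((p a1).1 * (p a2).1) ((p a1).2 * (p a2).2) = bl ((p a2).1 * (p a1).1) ((p a2).2 * (p a1).2) := by
    rw [← bl_mul, ← bl_mul, ← hp1 a1, ← hp1 a2]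
    exact congrArg (fun f : A => (f : Equiv.Perm P)) g6
  exact (bl_inj g7).2

theorem NW (h : Ctx s φ α) {δ : Ω} (hδ : Th φ α δ) (hδα : δ ≠ α) {j : G} (hj : j ∈ J' φ) (hjα : j • α = δ) :
    j ∈ W φ := by
  obtain ⟨w, hw, hwα⟩ := id hδ
  have h1 : (w⁻¹ * j) • α = α := by rw [mul_smul, hjα, ← hwα, inv_smul_smul]
  obtain ⟨a, ha⟩ := (h.st _).1 h1
  have hjw : j = w * φ a := by rw [ha]; group
  have h2 : a * mu z0 = mu z0 * a := by
    have h3 := mem_Cz.1 ((Cz φ).mul_mem ((Cz φ).inv_mem (W_Cz hw)) (J'_C hj))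
    rw [← ha, ← map_mul, ← map_mul] at h3
    exact h.inj h3
  obtain ⟨x, y, hxy, hx, hs⟩ := comm_bl a h2
  rcases e8 x hx with h4 | h4
  · rw [hjw]
    refine (W φ).mul_mem hw (mem_W.2 ⟨?_, ?_⟩)
    · rw [← map_mul, h2, map_mul]
    · rw [← map_mul, ← map_mul]
      congr 1
      ext1
      show (a : Equiv.Perm P) * bl v0 1 = bl v0 1 * (a : Equiv.Perm P)
      rw [hxy, bl_mul, bl_mul, h4, mul_one, one_mul]
  exfalso
  have hii : j⁻¹ = j := inv_eq_of_mul_eq_one_left (J'_sq hj)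
  have ha3 : a * mu v0 * a⁻¹ = mu (z0 * v0) := by
    rw [mul_inv_eq_iff_eq_mul]
    ext1
    show (a : Equiv.Perm P) * bl v0 1 = bl (z0 * v0 : B) 1 * (a : Equiv.Perm P)
    rw [hxy, bl_mul, bl_mul, mul_one, one_mul]
    congr 1
    rw [mul_inv_eq_iff_eq_mul] at h4
    exact h4
  have hzv : (z0 * v0) * (z0 * v0) = 1 := by decide +kernel
  have hjv : j * φ (mu v0) * j⁻¹ = φ (mu (z0 * v0)) := by
    rw [hjw]
    calc w * φ a * φ (mu v0) * (w * φ a)⁻¹ = w * φ (a * mu v0 * a⁻¹) * w⁻¹ := by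
          rw [map_mul, map_mul, map_inv]; group
      _ = φ (mu (z0 * v0)) := by
          rw [ha3, WK hw _ hzv]; group
  have hjz : j * φ (mu z0) * j⁻¹ = φ (mu z0) := by
    rw [mem_Cz.1 (J'_C hj)]; group
  have hnorm : ∀ w' ∈ W φ, j * w' * j⁻¹ ∈ W φ := by
    intro w' hw'
    have k1 : (j * w' * j⁻¹) * φ (mu z0) = φ (mu z0) * (j * w' * j⁻¹) := by
      calc (j * w' * j⁻¹) * φ (mu z0) = (j * w' * j⁻¹) * (j * φ (mu z0) * j⁻¹) := by rw [hjz]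
        _ = j * (w' * φ (mu z0)) * j⁻¹ := by group
        _ = (j * φ (mu z0) * j⁻¹) * (j * w' * j⁻¹) := by rw [(mem_W.1 hw').1]; group
        _ = _ := by rw [hjz]
    have k2 : (j * w' * j⁻¹) * φ (mu (z0 * v0)) = φ (mu (z0 * v0)) * (j * w' * j⁻¹) := by
      calc (j * w' * j⁻¹) * φ (mu (z0 * v0)) = (j * w' * j⁻¹) * (j * φ (mu v0) * j⁻¹) := by rw [hjv]
        _ = j * (w' * φ (mu v0)) * j⁻¹ := by group
        _ = (j * φ (mu v0) * j⁻¹) * (j * w' * j⁻¹) := by rw [(mem_W.1 hw').2]; group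
        _ = _ := by rw [hjv]
    refine mem_W.2 ⟨k1, ?_⟩
    have k3 : φ (mu v0) = φ (mu z0) * φ (mu (z0 * v0)) := by
      rw [← map_mul, ← map_mul, ← mul_assoc, z0v0.1, one_mul]
    rw [k3, ← mul_assoc, k1, mul_assoc (φ (mu z0)), k2, ← mul_assoc (φ (mu z0))]
  have hpres : ∀ ω, Th φ α ω → Th φ α (j • ω) := by
    rintro ω ⟨w', hw', rfl⟩
    have : j • (w' • α) = (j * w' * j⁻¹) • (j • α) := by
      rw [mul_smul, mul_smul, inv_smul_smul]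
    rw [this, hjα]
    exact Th_smul (hnorm w' hw') hδ
  obtain ⟨γ, ⟨w1, hw1, rfl⟩, hγj⟩ := h.odd j (J'_sq hj) hpres
  set j' := w1⁻¹ * j * w1 with hj'def
  have hj' : j' ∈ J' φ := by
    have := J'_conj j hj w1⁻¹ ((Cz φ).inv_mem (W_Cz hw1))
    rwa [inv_inv] at this
  have hj'α : j' • α = α := by
    rw [hj'def, mul_smul, mul_smul, hγj, inv_smul_smul]
  obtain ⟨b, hb⟩ := (h.st _).1 hj'α
  have hb2 : b * mu z0 = mu z0 * b := by
    have h3 := mem_Cz.1 (J'_C hj')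
    rw [← hb, ← map_mul, ← map_mul] at h3
    exact h.inj h3
  obtain ⟨x', y', hxy', hx', hs'⟩ := comm_bl b hb2
  have hbb : b * b = 1 := by
    apply h.inj
    rw [map_mul, hb, J'_sq hj', map_one]
  have h5 : bl x' y' * bl x' y' = bl 1 1 := by
    rw [← hxy', bl_one]; exact congrArg (fun f : A => (f : Equiv.Perm P)) hbb
  rw [bl_mul] at h5
  obtain ⟨hxx, hyy⟩ := bl_inj h5
  have hbv : b * mu v0 * b⁻¹ = mu (z0 * v0) := by
    apply h.inj
    rw [map_mul, map_mul, map_inv, hb, hj'def]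
    have h6 := WK hw1 v0 z0v0.2.1
    have h7 := WK hw1 (z0 * v0) hzv
    calc w1⁻¹ * j * w1 * φ (mu v0) * (w1⁻¹ * j * w1)⁻¹ = w1⁻¹ * j * (w1 * φ (mu v0)) * w1⁻¹ * j⁻¹ * w1 := by group
      _ = w1⁻¹ * (j * φ (mu v0) * j⁻¹) * w1 := by rw [h6]; group
      _ = φ (mu (z0 * v0)) := by rw [hjv, mul_assoc, ← h7]; group
  have hxv : x' * v0 * x'⁻¹ = z0 * v0 := by
    rw [mul_inv_eq_iff_eq_mul] at hbv ⊢
    have h6 : bl x' y' * bl v0 1 = bl (z0 * v0 : B) 1 * bl x' y' := by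
      rw [← hxy']; exact congrArg (fun f : A => (f : Equiv.Perm P)) hbv
    rw [bl_mul, bl_mul] at h6
    exact (bl_inj h6).1
  have hsx := e8' x' hx' hxv
  rw [hs'] at hsx
  obtain ⟨y1, hy1, hy1c⟩ := e9 y' hyy hsx
  obtain ⟨β, hβ, hβα, hβf⟩ := h.W4 hδ hδα y1 hy1
  have hpres' : Th φ α (j' • β) := by
    rw [hj'def, mul_smul, mul_smul]
    exact Th_smul ((W φ).inv_mem hw1) (hpres _ (Th_smul hw1 hβ))
  have hne : j' • β ≠ α := by
    intro hc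
    apply hβα
    have : β = j' • (j' • β) := by rw [← mul_smul, J'_sq hj', one_smul]
    rw [this, hc, hj'α]
  have hcomm : ∀ y2 : B, y' * (y1 : S4) = (y2 : S4) * y' → b * nu y1 = nu y2 * b := by
    intro y2 h8
    ext1
    show (b : Equiv.Perm P) * bl 1 y1 = bl 1 y2 * (b : Equiv.Perm P)
    rw [hxy', bl_mul, bl_mul, mul_one, one_mul, h8]
  have hfix : φ (nu y1) • (j' • β) = j' • β := by
    rcases hy1c with h8 | h8
    · have h9 := hcomm y1 h8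
      rw [← mul_smul, ← hb, ← map_mul, ← h9, map_mul, mul_smul, hβf]
    · have h9 := hcomm y1⁻¹ h8
      have h10 : nu y1 * b = b * (nu y1)⁻¹ := by
        rw [eq_mul_inv_iff_mul_eq, mul_assoc, h9, ← mul_assoc, ← map_mul, mul_inv_cancel, map_one, one_mul]
      rw [← mul_smul, ← hb, ← map_mul, h10, map_mul, mul_smul, map_inv]
      congr 1
      rw [inv_smul_eq_iff, hβf]
  have heq := h.W3 hpres' hne hβ hβα hy1 hfix hβf
  exact hβα (J'_uniq h hj' (Th_Ph hβ) Ph_one heq hj'α)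

theorem hle' (h : Ctx s φ α) {δ : Ω} (hδ : Th φ α δ) (hδα : δ ≠ α) :
    Nat.card {j // j ∈ J' φ ∧ j • α = δ} ≤ 12 := by
  rcases isEmpty_or_nonempty {j // j ∈ J' φ ∧ j • α = δ} with he | ⟨⟨i, hi, hiα⟩⟩
  · rw [Nat.card_of_isEmpty]; omega
  have key : ∀ i j : G, i ∈ J' φ → i • α = δ → j ∈ J' φ → j • α = δ → ∃ x y : B, x * x = 1 ∧
      i * j = φ (mu x * nu y) ∧ φ (nu y) • δ = δ := by
    intro i j hi hiα hj hjα
    have hi' : i • δ = α := by rw [← hiα, ← mul_smul, J'_sq hi, one_smul]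
    have hj' : j • δ = α := by rw [← hjα, ← mul_smul, J'_sq hj, one_smul]
    obtain ⟨x, y, hx, hxy⟩ := h.Wal (i * j) ((W φ).mul_mem (NW h hδ hδα hi hiα) (NW h hδ hδα hj hjα))
      (by rw [mul_smul, hjα, hi'])
    refine ⟨x, y, hx, hxy, ?_⟩
    have h4 : (i * j) • δ = δ := by rw [mul_smul, hj', hiα]
    rw [hxy, munu, map_mul, mul_smul, h.mufix x hx hδ] at h4
    exact h4
  have H : ∀ j : {j // j ∈ J' φ ∧ j • α = δ}, ∃ x y : B, x * x = 1 ∧ i * j.1 = φ (mu x * nu y) := by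
    rintro ⟨j, hj, hjα⟩
    obtain ⟨x, y, h1, h2, -⟩ := key i j hi hiα hj hjα
    exact ⟨x, y, h1, h2⟩
  choose X Y hX hY using H
  have hinj : Function.Injective (fun j : {j // j ∈ J' φ ∧ j • α = δ} =>
      ((⟨X j, hX j⟩, ⟨Y j * z0 * (Y j)⁻¹, d4 (Y j)⟩) : {x : B // x * x = 1} × {b : B // b * b = 1 ∧ b ≠ 1})) := by
    intro j k hjk
    have h1 : Y j * z0 * (Y j)⁻¹ = Y k * z0 * (Y k)⁻¹ := congrArg (fun q => q.2.1) hjk
    have h1' : X j = X k := congrArg (fun q => q.1.1) hjk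
    have h2 := d3 _ _ h1
    obtain ⟨x, y, h3, h4, h5⟩ := key j.1 k.1 j.2.1 j.2.2 k.2.1 k.2.2
    have h6 : j.1 * k.1 = φ (mu 1 * nu ((Y j)⁻¹ * Y k)) := by
      have e1 : j.1 * k.1 = (i * j.1)⁻¹ * (i * k.1) := by
        have : j.1⁻¹ = j.1 := inv_eq_of_mul_eq_one_left (J'_sq j.2.1)
        rw [mul_inv_rev, this]; group
      rw [e1, hY j, hY k, h1', ← map_inv, ← map_mul]
      congr 1
      rw [map_one, one_mul, map_mul, map_inv]; group
    rw [h4] at h6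
    obtain ⟨h7, h8⟩ := mn_inj (h.inj h6)
    have h9 : (Y j)⁻¹ * Y k = 1 := by
      by_contra hc
      rw [h8] at h5
      exact hδα (h.nufix _ h2 hc hδ h5)
    rw [h7, h8, h9, map_one, map_one, mul_one, map_one] at h4
    have h10 : j.1 = k.1⁻¹ := eq_inv_of_mul_eq_one_left h4
    have h11 : k.1⁻¹ = k.1 := inv_eq_of_mul_eq_one_left (J'_sq k.2.1)
    exact Subtype.ext (h10.trans h11)
  have := Nat.card_le_card_of_injective _ hinj
  rwa [Nat.card_eq_fintype_card (α := {x : B // x * x = 1} × {b : B // b * b = 1 ∧ b ≠ 1}), e13] at this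

theorem hn' (h : Ctx s φ α) : 12 ≤ Nat.card {j // j ∈ J' φ ∧ j • α = α} := by
  have hinj : Function.Injective (fun b : {p : B × B // p.1 * p.1 = 1 ∧ p.2 * p.2 = 1 ∧ p.2 ≠ 1} =>
      (⟨φ (mu b.1.1 * nu b.1.2), ⟨1, (Cz φ).one_mem, b.1.1, b.1.2, b.2.1, b.2.2.1, b.2.2.2, by group⟩, h.mual _⟩ :
        {j // j ∈ J' φ ∧ j • α = α})) := by
    intro b c hbc
    obtain ⟨h1, h2⟩ := mn_inj (h.inj (congrArg Subtype.val hbc))
    exact Subtype.ext (Prod.ext h1 h2)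
  have := Nat.card_le_card_of_injective _ hinj
  rwa [Nat.card_eq_fintype_card (α := {p : B × B // p.1 * p.1 = 1 ∧ p.2 * p.2 = 1 ∧ p.2 ≠ 1}), t4] at this

/-- the orbits of `α` under `C(φ μ z0)` and under `W` coincide -/
theorem PhTh (h : Ctx s φ α) {δ : Ω} (hδ : Ph φ α δ) : Th φ α δ := by
  by_contra hn
  obtain ⟨c, hc, rfl⟩ := id hδ
  have h1 := count (Cz φ) α (J' φ) J'_conj (fun j hj => J'_C hj) ?_ ?_ 12 (hn' h) ?_ c hc
  · have h2 := few h hδ hn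
    omega
  · intro j hj w hw w' hw' h1 h2
    exact J'_uniq h hj ⟨w, hw, rfl⟩ ⟨w', hw', rfl⟩ h1 h2
  · rintro j ⟨w, hw, x, y, hx, hy, hy1, rfl⟩
    refine ⟨w, hw, ?_⟩
    rw [mul_smul, mul_smul, inv_smul_smul, h.mual]
  · intro w hw hwα
    by_cases hT : Th φ α (w • α)
    · exact hle' h hT hwα
    · exact le_of_lt (few h ⟨w, hw, rfl⟩ hT)

/-- every fixed point of `φ μ z0` is in `Θ` -/
theorem fixTh (h : Ctx s φ α) {δ : Ω} (hδ : φ (mu z0) • δ = δ) : Th φ α δ := by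
  obtain ⟨g, rfl⟩ := h.tr δ
  have h3 : (g⁻¹ * φ (mu z0) * g) • α = α := by
    rw [mul_smul, mul_smul, hδ, inv_smul_smul]
  obtain ⟨a, ha⟩ := (h.st _).1 h3
  obtain ⟨c, hc⟩ := Ctx_fixz h _ (isConj_iff.2 ⟨g⁻¹, by group⟩) a ha
  have hgα : g • α = (g * φ c) • α := by rw [mul_smul, h.mual]
  have hk : g * φ c ∈ Cz φ := by
    rw [mem_Cz]
    have : φ c * φ (mu z0) * (φ c)⁻¹ = g⁻¹ * φ (mu z0) * g := by rw [← ha, ← hc]; simp
    calc g * φ c * φ (mu z0) = g * (φ c * φ (mu z0) * (φ c)⁻¹) * φ c := by group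
      _ = _ := by rw [this]; group
  rw [hgα]
  exact PhTh h ⟨_, hk, rfl⟩

end

end Cfsg.Agent.Lib.A8A9d
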