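import Cfsg.Agent.Lib.A8A9d

/-! Fusion and the nine points for the `A₈`/`A₉` recognition. -/

namespace Cfsg.Agent.Lib.A8A9e

open Cfsg.Agent.Lib.A8A9a Cfsg.Agent.Lib.A8A9b Cfsg.Agent.Lib.A8A9c Cfsg.Agent.Lib.A8A9d

/-- two involutions are conjugate or commute with a common involution -/
theorem invol {G : Type*} [Group G] [Finite G] (a b : G) (ha : a * a = 1) (hb : b * b = 1) :
    IsConj a b ∨ ∃ w, w * w = 1 ∧ w ≠ 1 ∧ w * a = a * w ∧ w * b = b * w := by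
  have hn : 0 < orderOf (a * b) := orderOf_pos _
  have ha' : a⁻¹ = a := inv_eq_of_mul_eq_one_left ha
  have hb' : b⁻¹ = b := inv_eq_of_mul_eq_one_left hb
  have h1 : a * (a * b) * a⁻¹ = (a * b)⁻¹ := by
    rw [mul_inv_rev, ha', hb', ← mul_assoc, ha, one_mul]
  have h2 : ∀ k : ℕ, a * (a * b) ^ k * a⁻¹ = ((a * b) ^ k)⁻¹ := by
    intro k
    rw [← conj_pow, h1, inv_pow]
  have hbt : b = a * (a * b) := by rw [← mul_assoc, ha, one_mul]
  rcases Nat.even_or_odd' (orderOf (a * b)) with ⟨m, hm | hm⟩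
  · right
    have hw : (a * b) ^ m * (a * b) ^ m = 1 := by
      rw [← pow_add, ← two_mul, ← hm, pow_orderOf_eq_one]
    have hwi : ((a * b) ^ m)⁻¹ = (a * b) ^ m := inv_eq_of_mul_eq_one_left hw
    have hwa : (a * b) ^ m * a = a * (a * b) ^ m := by
      have := h2 m
      rw [hwi, mul_inv_eq_iff_eq_mul] at this
      exact this.symm
    refine ⟨(a * b) ^ m, hw, ?_, hwa, ?_⟩
    · intro hc
      have := orderOf_dvd_of_pow_eq_one hc
      have := Nat.le_of_dvd (by omega) this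
      omega
    · nth_rw 2 3 [hbt]
      rw [← mul_assoc, hwa, mul_assoc, mul_assoc]
      congr 1
      rw [← pow_succ, ← pow_succ']
  · left
    refine isConj_iff.2 ⟨(a * b) ^ m, ?_⟩
    have h3 := h2 m
    have h4 : a * ((a * b) ^ m)⁻¹ = (a * b) ^ m * a := by
      rw [← h3, ← mul_assoc, ← mul_assoc, ha, one_mul, ha']
    rw [mul_assoc, h4, ← mul_assoc, ← pow_add]
    have h5 : (a * b) ^ (m + m) = (a * b)⁻¹ := by
      apply eq_inv_of_mul_eq_one_left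
      rw [← pow_succ, ← two_mul, ← hm, pow_orderOf_eq_one]
    rw [h5, mul_inv_rev, ha', hb', mul_assoc, ha, mul_one]

section

variable {G Ω : Type*} [Group G] [MulAction G Ω] {s : G} {φ : A →* G} {α : Ω} [Finite G]

/-- a strongly embedded like subgroup is everything -/
theorem LL (h : Ctx s φ α) (K : Subgroup G) (hA : ∀ a, φ a ∈ K) (hcz : ∀ c ∈ Cz φ, c ∈ K)
    (hconj : ∀ u ∈ K, u * u = 1 → u ≠ 1 → ∃ k ∈ K, ∃ a : A, k * φ a * k⁻¹ = u) : K = ⊤ := by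
  by_contra hK
  obtain ⟨g, hg⟩ : ∃ g, g ∉ K := by
    by_contra hc
    push Not at hc
    exact hK (Subgroup.ext fun x => ⟨fun _ => Subgroup.mem_top _, fun _ => hc x⟩)
  have hzz : φ (mu z0) * φ (mu z0) = 1 := by rw [← map_mul, ← map_mul, z0v0.1, map_one, map_one]
  have hinvC : ∀ u ∈ K, u * u = 1 → u ≠ 1 → ∀ c, c * u = u * c → c ∈ K := by
    intro u hu huu hu1 c hc
    obtain ⟨k, hk, a, rfl⟩ := hconj u hu huu hu1
    have h1 : (k⁻¹ * c * k) * φ a = φ a * (k⁻¹ * c * k) := by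
      calc (k⁻¹ * c * k) * φ a = k⁻¹ * (c * (k * φ a * k⁻¹)) * k := by group
        _ = _ := by rw [hc]; group
    have haa : a * a = 1 := by
      apply h.inj
      rw [map_mul, map_one]
      calc φ a * φ a = k⁻¹ * (k * φ a * k⁻¹ * (k * φ a * k⁻¹)) * k := by group
        _ = 1 := by rw [huu]; group
    have ha1 : a ≠ 1 := by
      rintro rfl
      apply hu1; simp
    have h2 : k⁻¹ * c * k ∈ K := by
      by_cases hS : IsConj s (φ a)
      · obtain ⟨b, hb⟩ := h.hC a hS _ h1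
        rw [← hb]; exact hA b
      · obtain ⟨d, hd⟩ := Ctx_conjz h a haa ha1 hS
        have h3 : (φ d)⁻¹ * (k⁻¹ * c * k) * φ d ∈ Cz φ := by
          rw [mem_Cz]
          have h4 : φ a = φ d * φ (mu z0) * (φ d)⁻¹ := by rw [← hd]; simp
          rw [h4] at h1
          calc (φ d)⁻¹ * (k⁻¹ * c * k) * φ d * φ (mu z0)
              = (φ d)⁻¹ * ((k⁻¹ * c * k) * (φ d * φ (mu z0) * (φ d)⁻¹)) * φ d := by group
            _ = _ := by rw [h1]; group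
        have h5 := K.mul_mem (K.mul_mem (hA d) (hcz _ h3)) (K.inv_mem (hA d))
        have h6 : φ d * ((φ d)⁻¹ * (k⁻¹ * c * k) * φ d) * (φ d)⁻¹ = k⁻¹ * c * k := by group
        rwa [h6] at h5
    have h7 := K.mul_mem (K.mul_mem hk h2) (K.inv_mem hk)
    have h8 : k * (k⁻¹ * c * k) * k⁻¹ = c := by group
    rwa [h8] at h7
  set y := g * φ (mu z0) * g⁻¹ with hy
  have hyy : y * y = 1 := by
    rw [hy]
    calc g * φ (mu z0) * g⁻¹ * (g * φ (mu z0) * g⁻¹) = g * (φ (mu z0) * φ (mu z0)) * g⁻¹ := by group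
      _ = 1 := by rw [hzz]; group
  have hy1 : y ≠ 1 := by
    intro hc
    have h1 : φ (mu z0) = 1 := by
      calc φ (mu z0) = g⁻¹ * (g * φ (mu z0) * g⁻¹) * g := by group
        _ = 1 := by rw [← hy, hc]; group
    have h2 : mu z0 * nu 1 = mu 1 * nu 1 := by apply h.inj; simp [h1]
    exact z0v0.2.2.1 (mn_inj h2).1
  have hyK : y ∉ K := by
    intro hyK
    obtain ⟨k, hk, a, ha⟩ := hconj y hyK hyy hy1
    obtain ⟨c, hc⟩ := Ctx_fixz h (φ a) (isConj_iff.2 ⟨k⁻¹ * g, by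
      calc k⁻¹ * g * φ (mu z0) * (k⁻¹ * g)⁻¹ = k⁻¹ * (g * φ (mu z0) * g⁻¹) * k := by group
        _ = φ a := by rw [← hy, ← ha]; group⟩) a rfl
    have h1 : (k * φ c)⁻¹ * g ∈ Cz φ := by
      rw [mem_Cz]
      have h2 : (k * φ c) * φ (mu z0) * (k * φ c)⁻¹ = g * φ (mu z0) * g⁻¹ := by
        rw [← hy, ← ha, ← hc, map_mul, map_mul, map_inv]; group
      calc (k * φ c)⁻¹ * g * φ (mu z0) = (k * φ c)⁻¹ * (g * φ (mu z0) * g⁻¹) * g := by group
        _ = _ := by rw [← h2]; group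
    have h3 := K.mul_mem (K.mul_mem hk (hA c)) (hcz _ h1)
    apply hg
    have h4 : k * φ c * ((k * φ c)⁻¹ * g) = g := by group
    rwa [h4] at h3
  have hs0 := h.SE z0 z0 z0v0.1 z0v0.2.2.1 z0v0.1 z0v0.2.2.1
  have hss : φ (mu z0 * nu z0) * φ (mu z0 * nu z0) = 1 := by
    rw [← map_mul, mnsq z0 z0 z0v0.1 z0v0.1, map_one]
  rcases invol (φ (mu z0 * nu z0)) y hss hyy with h1 | ⟨w, hww, hw1, hws, hwy⟩
  · have h2 : IsConj y (φ (mu z0)) := by
      rw [hy]; exact isConj_iff.2 ⟨g⁻¹, by group⟩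
    exact h.nSmu z0 ((hs0.trans h1).trans h2)
  · obtain ⟨b, hb⟩ := h.hC _ hs0 w hws
    exact hyK (hinvC w (hb ▸ hA b) hww hw1 y hwy.symm)

/-- block elements normalize `W` -/
theorem norm_bl (h : Ctx s φ α) (a : A) (x y : S4) (hxy : (a : Equiv.Perm P) = bl x y)
    {w : G} (hw : w ∈ W φ) : φ a * w * (φ a)⁻¹ ∈ W φ := by
  have key : ∀ k : B, k * k = 1 → (φ a * w * (φ a)⁻¹) * φ (mu k) = φ (mu k) * (φ a * w * (φ a)⁻¹) := by
    intro k hk
    let k' : B := ⟨x⁻¹ * k * x, by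
      rw [Equiv.Perm.mem_alternatingGroup, Equiv.Perm.sign_mul, Equiv.Perm.sign_mul, Equiv.Perm.sign_inv,
        Equiv.Perm.mem_alternatingGroup.1 k.2, mul_one, Int.units_mul_self]⟩
    have hk' : k' * k' = 1 := by
      ext1
      show x⁻¹ * k * x * (x⁻¹ * k * x) = 1
      have h1 : (k : S4) * k = 1 := congrArg Subtype.val hk
      calc x⁻¹ * k * x * (x⁻¹ * k * x) = x⁻¹ * ((k : S4) * k) * x := by group
        _ = 1 := by rw [h1]; group
    have h2 : mu k * a = a * mu k' := by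
      ext1
      show bl k 1 * (a : Equiv.Perm P) = (a : Equiv.Perm P) * bl k' 1
      rw [hxy, bl_mul, bl_mul, one_mul, mul_one]
      congr 1
      show (k : S4) * x = x * (x⁻¹ * k * x)
      group
    have h3 : (φ a)⁻¹ * φ (mu k) = φ (mu k') * (φ a)⁻¹ := by
      rw [inv_mul_eq_iff_eq_mul, ← mul_assoc, ← map_mul, ← h2, map_mul]; group
    have h4 := WK hw k' hk'
    calc (φ a * w * (φ a)⁻¹) * φ (mu k) = φ a * w * ((φ a)⁻¹ * φ (mu k)) := by group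
      _ = φ a * (w * φ (mu k')) * (φ a)⁻¹ := by rw [h3]; group
      _ = (φ a * φ (mu k')) * w * (φ a)⁻¹ := by rw [h4]; group
      _ = _ := by rw [← map_mul, ← h2, map_mul]; group
  exact mem_W.2 ⟨key z0 z0v0.1, key v0 z0v0.2.1⟩

theorem g1 : ∀ y : S4, y 3 = 3 → (y0 : S4) * y = y * y0 ∨ (y0 : S4) * y = y * (y0 : S4)⁻¹ := by decide +kernel

theorem D1 (h : Ctx s φ α) {β : Ω} (hβ : Th φ α β) (hβα : β ≠ α) (hy0 : φ (nu y0) • β = β)
    (a : A) (x y : S4) (hxy : (a : Equiv.Perm P) = bl x y) (hy : y 3 = 3) : φ a • β = β := by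
  have hT : Th φ α (φ a • β) := by
    obtain ⟨w, hw, rfl⟩ := hβ
    have h1 : φ a • w • α = (φ a * w * (φ a)⁻¹) • α := by
      have h2 : (φ a)⁻¹ • α = α := by rw [← map_inv, h.mual]
      rw [mul_smul, mul_smul, h2]
    rw [h1]
    exact ⟨_, norm_bl h a x y hxy hw, rfl⟩
  have hne : φ a • β ≠ α := by
    intro hc
    apply hβα
    rw [smul_eq_iff_eq_inv_smul, ← map_inv, h.mual] at hc
    exact hc
  refine h.W3 hT hne hβ hβα y0sq ?_ hy0
  rcases g1 y hy with h1 | h1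
  · have h2 : nu y0 * a = a * nu y0 := by
      ext1
      show bl 1 y0 * (a : Equiv.Perm P) = (a : Equiv.Perm P) * bl 1 y0
      rw [hxy, bl_mul, bl_mul, one_mul, mul_one, h1]
    rw [← mul_smul, ← map_mul, h2, map_mul, mul_smul, hy0]
  · have h2 : nu y0 * a = a * (nu y0)⁻¹ := by
      ext1
      show bl 1 y0 * (a : Equiv.Perm P) = (a : Equiv.Perm P) * bl 1 ((y0 : S4)⁻¹)
      rw [hxy, bl_mul, bl_mul, one_mul, mul_one, h1]
    rw [← mul_smul, ← map_mul, h2, map_mul, mul_smul, map_inv]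
    congr 1
    rw [inv_smul_eq_iff, hy0]

def c1 : A := ⟨Equiv.swap (Sum.inl 2) (Sum.inr 0) * Equiv.swap (Sum.inl 3) (Sum.inr 1),
  Equiv.Perm.mem_alternatingGroup.2 (by decide +kernel)⟩

def dd : A := ⟨bl (Equiv.swap 2 3) tt, Equiv.Perm.mem_alternatingGroup.2 (by decide +kernel)⟩

theorem c1bt : c1 * mu z0 * c1⁻¹ = bt := by decide +kernel

theorem wd1 : (c1 * nu z0 * bt) * (c1 * nu z0 * bt) = 1 ∧ ∀ p, ((c1 * nu z0 * bt : A) : Equiv.Perm P) p ≠ p := by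
  decide +kernel

theorem wd2 : ((c1 * nu v0) * dd * (c1 * nu v0)⁻¹ * mu z0) * ((c1 * nu v0) * dd * (c1 * nu v0)⁻¹ * mu z0) = 1 ∧
    ∀ p, (((c1 * nu v0) * dd * (c1 * nu v0)⁻¹ * mu z0 : A) : Equiv.Perm P) p ≠ p := by
  decide +kernel

theorem wd3 : ((c1 * nu (z0 * v0)) * dd * (c1 * nu (z0 * v0))⁻¹ * mu z0) * ((c1 * nu (z0 * v0)) * dd * (c1 * nu (z0 * v0))⁻¹ * mu z0) = 1 ∧
    ∀ p, (((c1 * nu (z0 * v0)) * dd * (c1 * nu (z0 * v0))⁻¹ * mu z0 : A) : Equiv.Perm P) p ≠ p := by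
  decide +kernel

theorem D4 (h : Ctx s φ α) {β : Ω} (hβ : Th φ α β) (hβα : β ≠ α) (hy0 : φ (nu y0) • β = β) :
    φ c1 • β = β := by
  have hbt : φ bt • β = β := D1 h hβ hβα hy0 bt tt tt bt_coe (by decide)
  have hdd : φ dd • β = β := D1 h hβ hβα hy0 dd (Equiv.swap 2 3) tt rfl (by decide)
  have hmz : φ (mu z0) • β = β := h.mufix z0 z0v0.1 hβ
  have h1 : φ (mu z0) • ((φ c1)⁻¹ • β) = (φ c1)⁻¹ • β := by
    rw [← c1bt, map_mul, map_mul, map_inv, mul_smul, mul_smul] at hbt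
    rw [eq_inv_smul_iff]; exact hbt
  have h2 := fixTh h h1
  have h3 : (φ c1)⁻¹ • β ≠ α := by
    intro hc
    rw [inv_smul_eq_iff, h.mual] at hc
    exact hβα hc
  obtain ⟨v, hv, hve⟩ := h.W5 hβ hβα hy0 h2 h3
  have h4 : φ (c1 * nu v) • β = β := by
    rw [map_mul, mul_smul, ← hve, smul_inv_smul]
  have kill : ∀ a : A, (a * a = 1 ∧ ∀ p, (a : Equiv.Perm P) p ≠ p) → φ a • β = β → False :=
    fun a ha hf => hβα (h.U a ((h.hS a).2 ha) β hf)
  have h5 : (φ (c1 * nu v))⁻¹ • β = β := by rw [inv_smul_eq_iff, h4]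
  rcases d1 v hv with rfl | rfl | rfl | rfl
  · simpa using h4
  · exact (kill _ wd1 (by rw [map_mul, mul_smul, hbt, h4])).elim
  · exact (kill _ wd2 (by rw [map_mul, map_mul _ _ (c1 * nu v0)⁻¹, map_mul _ (c1 * nu v0) dd, map_inv, mul_smul, mul_smul, mul_smul, hmz, h5, hdd, h4])).elim
  · exact (kill _ wd3 (by rw [map_mul, map_mul _ _ (c1 * nu (z0 * v0))⁻¹, map_mul _ (c1 * nu (z0 * v0)) dd, map_inv, mul_smul, mul_smul, mul_smul, hmz, h5, hdd, h4])).elim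

abbrev S7 := {p : P // p ≠ Sum.inr 3}

def oS : alternatingGroup S7 →* A where
  toFun σ := ⟨Equiv.Perm.ofSubtype σ.1, by
    rw [Equiv.Perm.mem_alternatingGroup, Equiv.Perm.sign_ofSubtype]
    exact Equiv.Perm.mem_alternatingGroup.1 σ.2⟩
  map_one' := by ext1; simp
  map_mul' x y := by ext1; simp

theorem sub7 (a : A) (ha : (a : Equiv.Perm P) (Sum.inr 3) = Sum.inr 3) :
    ∃ σ : alternatingGroup S7, oS σ = a ∧ ∀ p : S7, ((σ.1 p : S7) : P) = (a : Equiv.Perm P) p := by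
  have h1 : ∀ p : P, (a : Equiv.Perm P) p ≠ Sum.inr 3 ↔ p ≠ Sum.inr 3 := by
    intro p
    rw [not_iff_not]
    constructor
    · intro hp
      rw [← ha] at hp
      exact (a : Equiv.Perm P).injective hp
    · rintro rfl; exact ha
  have h2 : ∀ p : P, (a : Equiv.Perm P) p ≠ p → p ≠ Sum.inr 3 := by
    rintro p hp rfl
    exact hp ha
  refine ⟨⟨(a : Equiv.Perm P).subtypePerm h1, ?_⟩, ?_, ?_⟩
  · rw [Equiv.Perm.mem_alternatingGroup, Equiv.Perm.sign_subtypePerm _ h1 h2]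
    exact Equiv.Perm.mem_alternatingGroup.1 a.2
  · ext1
    exact Equiv.Perm.ofSubtype_subtypePerm h1 h2
  · intro p; rfl

theorem i1 : ∀ i : Fin 4, ∃ x : B, (x : S4) 0 = i := by decide +kernel
theorem i2 : ∀ i : Fin 4, i ≠ 3 → ∃ x : B, (x : S4) 3 = 3 ∧ (x : S4) 0 = i := by decide +kernel
theorem i3 : (c1 : Equiv.Perm P) (Sum.inl 2) = Sum.inr 0 ∧ (c1 : Equiv.Perm P) (Sum.inr 3) = Sum.inr 3 := by decide +kernel

/-- transitivity on seven points inside the stabilizer of `β` -/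
theorem tr7 (h : Ctx s φ α) {β : Ω} (hβ : Th φ α β) (hβα : β ≠ α) (hy0 : φ (nu y0) • β = β)
    (p : P) (hp : p ≠ Sum.inr 3) : ∃ a : A, φ a • β = β ∧ (a : Equiv.Perm P) (Sum.inr 3) = Sum.inr 3 ∧
      (a : Equiv.Perm P) (Sum.inl 0) = p := by
  have hmu : ∀ x : B, φ (mu x) • β = β := fun x => D1 h hβ hβα hy0 (mu x) x 1 (mu_coe x) rfl
  rcases p with i | i
  · obtain ⟨x, hx⟩ := i1 i
    refine ⟨mu x, hmu x, ?_, ?_⟩
    · rw [mu_coe]; simp [bl]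
    · rw [mu_coe]; simp [bl, hx]
  · obtain ⟨x, hx⟩ := i1 2
    obtain ⟨y, hy, hy'⟩ := i2 i (fun hc => hp (by rw [hc]))
    have hnu : φ (nu y) • β = β := D1 h hβ hβα hy0 (nu y) 1 y (nu_coe y) hy
    refine ⟨nu y * c1 * mu x, ?_, ?_, ?_⟩
    · rw [map_mul, map_mul, mul_smul, mul_smul, hmu, D4 h hβ hβα hy0, hnu]
    · have e1 : (mu x : Equiv.Perm P) (Sum.inr 3) = Sum.inr 3 := by rw [mu_coe]; simp [bl]
      have e2 : (nu y : Equiv.Perm P) (Sum.inr 3) = Sum.inr 3 := by rw [nu_coe]; simp [bl, hy]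
      show (nu y : Equiv.Perm P) ((c1 : Equiv.Perm P) ((mu x : Equiv.Perm P) (Sum.inr 3))) = _
      rw [e1, i3.2, e2]
    · have e1 : (mu x : Equiv.Perm P) (Sum.inl 0) = Sum.inl 2 := by rw [mu_coe]; simp [bl, hx]
      have e2 : (nu y : Equiv.Perm P) (Sum.inr 0) = Sum.inr i := by rw [nu_coe]; simp [bl, hy']
      show (nu y : Equiv.Perm P) ((c1 : Equiv.Perm P) ((mu x : Equiv.Perm P) (Sum.inl 0))) = _
      rw [e1, i3.1, e2]

theorem D5a (h : Ctx s φ α) {β : Ω} (hβ : Th φ α β) (hβα : β ≠ α) (hy0 : φ (nu y0) • β = β)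
    (a : A) (ha : (a : Equiv.Perm P) (Sum.inr 3) = Sum.inr 3) : φ a • β = β := by
  let M : Subgroup (Equiv.Perm S7) := (((MulAction.stabilizer G β).comap φ).comap oS).map (alternatingGroup S7).subtype
  have hM : ∀ m : Equiv.Perm S7, m ∈ M ↔ ∃ σ : alternatingGroup S7, φ (oS σ) • β = β ∧ σ.1 = m := by
    intro m
    constructor
    · rintro ⟨σ, hσ, rfl⟩
      exact ⟨σ, hσ, rfl⟩
    · rintro ⟨σ, hσ, rfl⟩
      exact ⟨σ, hσ, rfl⟩
  haveI htr : MulAction.IsPretransitive M S7 := by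
    rw [MulAction.isPretransitive_iff_base (⟨Sum.inl 0, by simp⟩ : S7)]
    rintro ⟨q, hq⟩
    obtain ⟨b, hb1, hb2, hb3⟩ := tr7 h hβ hβα hy0 q hq
    obtain ⟨σ, hσ1, hσ2⟩ := sub7 b hb2
    refine ⟨⟨σ.1, (hM _).2 ⟨σ, by rw [hσ1, hb1], rfl⟩⟩, ?_⟩
    apply Subtype.ext
    show ((σ.1 _ : S7) : P) = q
    rw [hσ2]; exact hb3
  have hcard : Nat.card S7 = 7 := by rw [Nat.card_eq_fintype_card]; decide
  have hprim : MulAction.IsPreprimitive M S7 := MulAction.IsPreprimitive.of_prime_card (by rw [hcard]; norm_num)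
  have h3 : ∃ g : Equiv.Perm S7, g.IsThreeCycle ∧ g ∈ M := by
    have hb2 : (mu y0 : Equiv.Perm P) (Sum.inr 3) = Sum.inr 3 := by rw [mu_coe]; simp [bl]
    obtain ⟨σ, hσ1, hσ2⟩ := sub7 (mu y0) hb2
    refine ⟨σ.1, ?_, (hM _).2 ⟨σ, by
      rw [hσ1]; exact D1 h hβ hβα hy0 (mu y0) y0 1 (mu_coe y0) rfl, rfl⟩⟩
    rw [← card_support_eq_three_iff]
    have : σ.1.support = Finset.univ.filter (fun p : S7 => (mu y0 : Equiv.Perm P) p ≠ p) := by
      ext p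
      rw [Equiv.Perm.mem_support, Finset.mem_filter, ← hσ2 p]
      simp [Subtype.ext_iff]
    rw [this]
    decide +kernel
  obtain ⟨g, hg3, hgM⟩ := h3
  have hle := Equiv.Perm.alternatingGroup_le_of_isPreprimitive_of_isThreeCycle_mem hprim hg3 hgM
  obtain ⟨σ, hσ1, -⟩ := sub7 a ha
  obtain ⟨τ, hτ1, hτ2⟩ := (hM σ.1).1 (hle σ.2)
  have : τ = σ := Subtype.ext hτ2
  rw [← hσ1, ← this]; exact hτ1

def T (i : Fin 4) : Equiv.Perm P := bl (Equiv.swap 3 i) 1 * (Equiv.sumComm (Fin 4) (Fin 4)) * (bl (Equiv.swap 3 i) 1)⁻¹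

theorem T_spec : ∀ i : Fin 4, Equiv.Perm.sign (T i) = 1 ∧ T i * T i = 1 ∧ (∀ p, T i p ≠ p) ∧ T i (Sum.inr 3) = Sum.inl i := by
  decide +kernel

theorem i4 : ∀ i : Fin 4, i ≠ 3 → ∃ v : B, v * v = 1 ∧ v ≠ 1 ∧ (v : S4) 3 = i := by decide +kernel

theorem tp (p : P) (hp : p ≠ Sum.inr 3) : ∃ t : A, (t * t = 1 ∧ ∀ q, (t : Equiv.Perm P) q ≠ q) ∧
    (t : Equiv.Perm P) (Sum.inr 3) = p := by
  rcases p with i | i
  · obtain ⟨h1, h2, h3, h4⟩ := T_spec i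
    exact ⟨⟨T i, Equiv.Perm.mem_alternatingGroup.2 h1⟩, ⟨Subtype.ext h2, h3⟩, h4⟩
  · obtain ⟨v, hv, hv1, hv3⟩ := i4 i (fun hc => hp (by rw [hc]))
    refine ⟨mu z0 * nu v, ⟨mnsq z0 v z0v0.1 hv, ?_⟩, ?_⟩
    · intro q
      rw [mn_coe]
      rcases q with j | j
      · simpa [bl] using d2 z0 z0v0.1 z0v0.2.2.1 j
      · simpa [bl] using d2 v hv hv1 j
    · rw [mn_coe]; simp [bl, hv3]

theorem D5 (h : Ctx s φ α) {β : Ω} (hβ : Th φ α β) (hβα : β ≠ α) (hy0 : φ (nu y0) • β = β)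
    (a : A) : φ a • β = β ↔ (a : Equiv.Perm P) (Sum.inr 3) = Sum.inr 3 := by
  refine ⟨fun ha => ?_, D5a h hβ hβα hy0 a⟩
  by_contra hne
  obtain ⟨t, ht, htp⟩ := tp _ hne
  have htt : (t : Equiv.Perm P) ((t : Equiv.Perm P) (Sum.inr 3)) = Sum.inr 3 := by
    exact congrArg (fun f : A => (f : Equiv.Perm P) (Sum.inr 3)) ht.1
  have h1 : ((t * a : A) : Equiv.Perm P) (Sum.inr 3) = Sum.inr 3 := by
    show (t : Equiv.Perm P) ((a : Equiv.Perm P) (Sum.inr 3)) = Sum.inr 3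
    rw [← htp, htt]
  have h2 := D5a h hβ hβα hy0 _ h1
  rw [map_mul, mul_smul, ha] at h2
  exact hβα (h.U t ((h.hS t).2 ht) β h2)

theorem trP (p : P) : ∃ a : A, (a : Equiv.Perm P) (Sum.inr 3) = p := by
  by_cases hp : p = Sum.inr 3
  · exact ⟨1, by rw [hp]; rfl⟩
  · obtain ⟨t, -, ht⟩ := tp p hp
    exact ⟨t, ht⟩

/-- the nine points -/
theorem D6 (h : Ctx s φ α) {β : Ω} (hβ : Th φ α β) (hβα : β ≠ α) (hy0 : φ (nu y0) • β = β) :
    ∃ f : P → Ω, Function.Injective f ∧ (∀ p, f p ≠ α) ∧ (∀ a : A, ∀ p, φ a • f p = f ((a : Equiv.Perm P) p)) ∧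
      f (Sum.inr 3) = β := by
  choose c hc using trP
  have key : ∀ a b : A, (a : Equiv.Perm P) (Sum.inr 3) = (b : Equiv.Perm P) (Sum.inr 3) ↔ φ a • β = φ b • β := by
    intro a b
    rw [← inv_smul_eq_iff, ← mul_smul, ← map_inv, ← map_mul, D5 h hβ hβα hy0]
    show _ ↔ (b : Equiv.Perm P)⁻¹ ((a : Equiv.Perm P) (Sum.inr 3)) = Sum.inr 3
    rw [Equiv.Perm.inv_eq_iff_eq]
  refine ⟨fun p => φ (c p) • β, ?_, ?_, ?_, ?_⟩
  · intro p q hpq
    have := (key _ _).2 hpq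
    rwa [hc, hc] at this
  · intro p hp
    apply hβα
    have hp' : φ (c p) • β = α := hp
    rw [smul_eq_iff_eq_inv_smul, ← map_inv, h.mual] at hp'
    exact hp'
  · intro a p
    show φ a • φ (c p) • β = φ (c _) • β
    rw [← mul_smul, ← map_mul, ← key, hc]
    show (a : Equiv.Perm P) ((c p : Equiv.Perm P) (Sum.inr 3)) = _
    rw [hc]
  · show φ (c _) • β = β
    rw [D5 h hβ hβα hy0, hc]

/-- an involution joining `α` and `β` and preserving the nine points -/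
theorem D7 (h : Ctx s φ α) {β : Ω} (hβ : Th φ α β) (hβα : β ≠ α) (hy0 : φ (nu y0) • β = β)
    (f : P → Ω) (hf1 : Function.Injective f) (hf2 : ∀ p, f p ≠ α)
    (hf3 : ∀ a : A, ∀ p, φ a • f p = f ((a : Equiv.Perm P) p)) (hf4 : f (Sum.inr 3) = β) :
    ∃ k : G, k * k = 1 ∧ k • α = β ∧ k • β = α ∧ ∀ p, p ≠ Sum.inr 3 → ∃ q, k • f p = f q := by
  obtain ⟨k, hk, hkα⟩ := h.T3' hβ
  have hkk := J_sq hk
  have hkβ : k • β = α := by rw [← hkα, ← mul_smul, hkk, one_smul]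
  refine ⟨k, hkk, hkα, hkβ, ?_⟩
  intro p hp
  obtain ⟨v, hv, hv1, hv3⟩ := i4 0 (by decide)
  have h0 : f (Sum.inr 0) = φ (nu v) • β := by
    rw [← hf4, hf3, nu_coe]
    congr 1
    simp [bl, hv3]
  have h0T : Th φ α (f (Sum.inr 0)) := by
    rw [h0]; exact Th_smul (nuW v) hβ
  obtain ⟨a1, ha1, ha1', ha1''⟩ := tr7 h hβ hβα hy0 p hp
  obtain ⟨a2, ha2, ha2', ha2''⟩ := tr7 h hβ hβα hy0 (Sum.inr 0) (by simp)
  have h1 : f p = φ (a1 * a2⁻¹) • f (Sum.inr 0) := by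
    rw [hf3]
    congr 1
    show p = (a1 : Equiv.Perm P) ((a2 : Equiv.Perm P)⁻¹ (Sum.inr 0))
    have e5 : (a2 : Equiv.Perm P)⁻¹ (Sum.inr 0) = Sum.inl 0 := by
      rw [Equiv.Perm.inv_eq_iff_eq, ha2'']
    rw [e5, ha1'']
  have h2 : φ (a1 * a2⁻¹) • β = β := by
    rw [map_mul, mul_smul, map_inv]
    have : (φ a2)⁻¹ • β = β := by rw [inv_smul_eq_iff, ha2]
    rw [this, ha1]
  have h3 : (k * φ (a1 * a2⁻¹) * k) • α = α := by
    rw [mul_smul, mul_smul, hkα, h2, hkβ]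
  obtain ⟨b, hb⟩ := (h.st _).1 h3
  have h4 : k • f p = φ b • (k • f (Sum.inr 0)) := by
    rw [h1, hb, ← mul_smul, ← mul_smul]
    congr 1
    rw [mul_assoc, mul_assoc, hkk, mul_one]
  have h5 : Th φ α (k • f (Sum.inr 0)) := Th_smul (J_W hk) h0T
  have h6 : k • f (Sum.inr 0) ≠ α := by
    intro hc
    have h7 : f (Sum.inr 0) = f (Sum.inr 3) := by
      rw [hf4, ← hkα, ← hc, ← mul_smul, hkk, one_smul]
    have h8 := hf1 h7
    revert h8; decide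
  obtain ⟨v', hv', hv'e⟩ := h.W5 hβ hβα hy0 h5 h6
  refine ⟨(b : Equiv.Perm P) ((nu v' : Equiv.Perm P) (Sum.inr 3)), ?_⟩
  rw [h4, hv'e, ← hf4, hf3, hf3]

end

end Cfsg.Agent.Lib.A8A9e
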