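import Mathlib

/-! Products of a cyclic group and a Z-group: common definitions. -/

set_option autoImplicit false

namespace Cfsg.Agent.Lib.AB68

open Equiv

universe u

variable {Ω : Type*}

/-- transitive -/
def M1 (A : Subgroup (Perm Ω)) : Prop := ∀ a b : Ω, ∃ g ∈ A, g a = b

/-- doubly transitive -/
def M2 (G : Subgroup (Perm Ω)) : Prop :=
  ∀ a b c d : Ω, a ≠ b → c ≠ d → ∃ g ∈ G, g a = c ∧ g b = d

/-- sharply triply transitive -/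
def Sh3 (G : Subgroup (Perm Ω)) : Prop :=
  (∀ a b c a' b' c' : Ω, a ≠ b → a ≠ c → b ≠ c → a' ≠ b' → a' ≠ c' → b' ≠ c' →
    ∃ g ∈ G, g a = a' ∧ g b = b' ∧ g c = c') ∧
  (∀ g ∈ G, ∀ a b c : Ω, a ≠ b → a ≠ c → b ≠ c → g a = a → g b = b → g c = c → g = 1)

/-- every element swapping two points is an involution -/
def Sw (G : Subgroup (Perm Ω)) : Prop :=
  ∀ g ∈ G, ∀ a b : Ω, a ≠ b → g a = b → g b = a → g * g = 1

/-- point stabilizer -/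
def st (G : Subgroup (Perm Ω)) (a : Ω) : Subgroup (Perm Ω) where
  carrier := {g | g ∈ G ∧ g a = a}
  one_mem' := ⟨G.one_mem, rfl⟩
  mul_mem' := by
    rintro x y ⟨hx, hxa⟩ ⟨hy, hya⟩
    exact ⟨G.mul_mem hx hy, by rw [Perm.mul_apply, hya, hxa]⟩
  inv_mem' := by
    rintro x ⟨hx, hxa⟩
    refine ⟨G.inv_mem hx, ?_⟩
    rw [Perm.inv_eq_iff_eq]; exact hxa.symm

theorem mem_st {G : Subgroup (Perm Ω)} {a : Ω} {g : Perm Ω} : g ∈ st G a ↔ g ∈ G ∧ g a = a := Iff.rfl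

/-- two point stabilizer -/
def st2 (G : Subgroup (Perm Ω)) (a b : Ω) : Subgroup (Perm Ω) := st (st G a) b

theorem mem_st2 {G : Subgroup (Perm Ω)} {a b : Ω} {g : Perm Ω} :
    g ∈ st2 G a b ↔ (g ∈ G ∧ g a = a) ∧ g b = b := Iff.rfl

/-- the setting -/
structure Cfg (G A : Subgroup (Perm Ω)) : Prop where
  h2 : M2 G
  hAG : A ≤ G
  hA : IsCyclic A
  hA1 : M1 A
  hZ : ∀ a, IsZGroup (st G a)
  hev : Even (Nat.card Ω)
  hne : Nonempty Ω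
  hfin : Finite Ω

/-- the refined setting -/
structure FD (G A F D : Subgroup (Perm Ω)) (u : Perm Ω) (a : Ω) : Prop where
  c : Cfg G A
  huA : u ∈ A
  hu2 : u * u = 1
  huf : ∀ x, u x ≠ x
  hD : D = st2 G a (u a)
  hDc : IsCyclic D
  hDu : ∀ d ∈ D, u * d * u ∈ D
  hF : F ≤ st G a
  hFn : ∀ g ∈ st G a, ∀ f ∈ F, g * f * g⁻¹ ∈ F
  hFc : IsCyclic F
  hFC : ∀ g ∈ st G a, (∀ f ∈ F, g * f = f * g) → g ∈ F
  hFr : ∀ x, x ≠ a → ∃! f, f ∈ F ∧ f (u a) = x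
  hFcard : Nat.card F + 1 = Nat.card Ω
  hFD : ∀ g ∈ st G a, ∃ f ∈ F, ∃ d ∈ D, g = f * d
  hDe : Even (Nat.card D)

/-- the setting of the second case -/
structure T8 (G A F D : Subgroup (Perm Ω)) (u : Perm Ω) (a : Ω) (t : Perm Ω) (p : ℕ)
    (G' : Subgroup (Perm {x : Ω // t x = x})) : Prop where
  fd : FD G A F D u a
  ht : t ∈ D
  ht2 : t * t = 1
  ht1 : t ≠ 1
  htu : t * u = u * t
  htD : ∀ d ∈ D, d * d = 1 → d = 1 ∨ d = t
  hp : p.Prime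
  hp2 : p ≠ 2
  hm : Nat.card {x : Ω // t x = x} = p + 1
  hG' : ∀ g' : Perm {x : Ω // t x = x}, g' ∈ G' ↔ ∃ g ∈ G, g * t = t * g ∧ ∀ y, (g' y : Ω) = g y
  h3 : Sh3 G'
  hsw : Sw G'

/-- the target -/
def IsPGL (X : Type*) [Group X] : Prop :=
  ∃ (F : Type) (_ : Field F) (_ : Fintype F) (p : ℕ), p.Prime ∧ 3 < p ∧ Fintype.card F = p ∧
      Nonempty (X ≃* (GL (Fin 2) F ⧸ Subgroup.center (GL (Fin 2) F)))

end Cfsg.Agent.Lib.AB68
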