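import Mathlib
import Cfsg.Agent.Lib.AB68

set_option autoImplicit false
set_option linter.all false

/-! S3252 piece P3: fixed points of a subgroup of a two point stabilizer. -/

namespace Cfsg.Agent.Lib.AB68

open Equiv

universe u
variable {Ω : Type u}

theorem p3_ias {α : Type*} (g : Perm α) (x : α) : g⁻¹ (g x) = x := g.symm_apply_apply x

theorem p3_cyc {G : Type*} [Group G] [Finite G] [IsCyclic G] {H K : Subgroup G}
    (h : Nat.card H = Nat.card K) : H = K := by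
  classical
  have : Fintype G := Fintype.ofFinite G
  have key : ∀ L : Subgroup G, Nat.card L = Nat.card K →
      (Finset.univ.filter (fun a : G => a ^ Nat.card K = 1)) = (Finset.univ.filter (fun a : G => a ∈ L)) := by
    intro L hL
    symm
    apply Finset.eq_of_subset_of_card_le
    · intro a ha
      simp only [Finset.mem_filter, Finset.mem_univ, true_and] at ha ⊢
      rw [← hL]
      have h6 : (⟨a, ha⟩ : L) ^ Nat.card L = 1 := pow_card_eq_one'
      have h7 := congrArg Subtype.val h6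
      rwa [Subgroup.coe_pow, Subgroup.coe_one] at h7
    · refine (IsCyclic.card_pow_eq_one_le Nat.card_pos).trans ?_
      rw [← hL, Nat.card_eq_fintype_card, Fintype.card_subtype]
  have h1 := key H h
  have h2 := key K rfl
  rw [h1] at h2
  ext x
  have := Finset.ext_iff.mp h2 x
  simpa using this

theorem p3_eq {P : Type*} [Group P] [Finite P] {D X Y : Subgroup P} (hD : IsCyclic D) (hX : X ≤ D) (hY : Y ≤ D)
    (h : Nat.card X = Nat.card Y) : X = Y := by
  have h1 : X.subgroupOf D = Y.subgroupOf D := by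
    apply p3_cyc
    rw [Nat.card_congr (Subgroup.subgroupOfEquivOfLe hX).toEquiv, Nat.card_congr (Subgroup.subgroupOfEquivOfLe hY).toEquiv, h]
  rw [Subgroup.subgroupOf_inj, inf_eq_left.2 hX, inf_eq_left.2 hY] at h1
  exact h1

theorem p3_norm {P : Type*} [Group P] [Finite P] {D X : Subgroup P} (hD : IsCyclic D) (hX : X ≤ D) {g : P}
    (hg : ∀ x ∈ X, g⁻¹ * x * g ∈ D) : g ∈ Subgroup.normalizer (X : Set P) := by
  have h1 : X.map (MulAut.conj g⁻¹).toMonoidHom = X := by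
    apply p3_eq hD ?_ hX
    · exact (Nat.card_congr (X.equivMapOfInjective _ (MulAut.conj g⁻¹).injective).toEquiv).symm
    · rintro _ ⟨x, hx, rfl⟩
      have := hg x hx
      simpa using this
  rw [Subgroup.mem_normalizer_iff]
  intro h
  constructor
  · intro hh
    have hh' : h ∈ X := hh
    rw [← h1] at hh'
    obtain ⟨x, hx, rfl⟩ := hh'
    have : g * (MulAut.conj g⁻¹).toMonoidHom x * g⁻¹ = x := by
      show g * (g⁻¹ * x * g⁻¹⁻¹) * g⁻¹ = x
      group
    rw [this]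
    exact hx
  · intro hh
    show h ∈ X
    rw [← h1]
    refine ⟨_, hh, ?_⟩
    show g⁻¹ * (g * h * g⁻¹) * g⁻¹⁻¹ = h
    group

theorem p3_inv {X : Subgroup (Perm Ω)} {q : Ω → Prop} (hq : ∀ x, q x ↔ ∀ g ∈ X, g x = x) {g : Perm Ω}
    (hg : g ∈ Subgroup.normalizer (X : Set (Perm Ω))) (x : Ω) : q (g x) ↔ q x := by
  rw [Subgroup.mem_normalizer_iff] at hg
  rw [hq, hq]
  constructor
  · intro h z hz
    have h1 := h _ ((hg z).1 hz)
    rw [Perm.mul_apply, Perm.mul_apply, p3_ias] at h1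
    exact g.injective h1
  · intro h y hy
    have h1 : g⁻¹ * y * g ∈ X := (hg _).2 (by
      have : g * (g⁻¹ * y * g) * g⁻¹ = y := by group
      rw [this]; exact hy)
    have h2 := h _ h1
    rw [Perm.mul_apply, Perm.mul_apply, Perm.inv_eq_iff_eq] at h2
    exact h2

/-- restriction to the fixed points -/
def p3_res {X : Subgroup (Perm Ω)} {q : Ω → Prop} (hq : ∀ x, q x ↔ ∀ g ∈ X, g x = x) :
    ↥(Subgroup.normalizer (X : Set (Perm Ω))) →* Perm {x : Ω // q x} where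
  toFun g := (g : Perm Ω).subtypePerm (p3_inv hq g.2)
  map_one' := by ext; rfl
  map_mul' g h := by ext; rfl

theorem p3_res_apply {X : Subgroup (Perm Ω)} {q : Ω → Prop} (hq : ∀ x, q x ↔ ∀ g ∈ X, g x = x)
    (g : ↥(Subgroup.normalizer (X : Set (Perm Ω)))) (y : {x : Ω // q x}) : (p3_res hq g y : Ω) = (g : Perm Ω) y := rfl

theorem p3_mem {X : Subgroup (Perm Ω)} {q : Ω → Prop} (hq : ∀ x, q x ↔ ∀ g ∈ X, g x = x) (G : Subgroup (Perm Ω))
    (g' : Perm {x : Ω // q x}) :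
    g' ∈ (G.subgroupOf (Subgroup.normalizer (X : Set (Perm Ω)))).map (p3_res hq) ↔
      ∃ g ∈ G, (∀ x, x ∈ X ↔ g * x * g⁻¹ ∈ X) ∧ ∀ y, (g' y : Ω) = g y := by
  constructor
  · rintro ⟨g, hg, rfl⟩
    exact ⟨g.1, hg, Subgroup.mem_normalizer_iff.1 g.2, fun y => rfl⟩
  · rintro ⟨g, hg, hn, hy⟩
    refine ⟨⟨g, Subgroup.mem_normalizer_iff.2 hn⟩, hg, ?_⟩
    ext y
    rw [p3_res_apply, hy]

theorem P3 {G A : Subgroup (Perm Ω)} (c : Cfg G A) (u : Perm Ω) (hu : u ∈ A) (hu2 : u * u = 1)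
    (huf : ∀ x, u x ≠ x) (a : Ω) (hD : IsCyclic (st2 G a (u a))) (X : Subgroup (Perm Ω))
    (hX : X ≤ st2 G a (u a)) (q : Ω → Prop) (hq : ∀ x, q x ↔ ∀ g ∈ X, g x = x) :
    (∀ x ∈ X, u * x * u ∈ X) ∧
    ∃ G' A' : Subgroup (Perm {x : Ω // q x}), Cfg G' A' ∧
      (∀ g', g' ∈ G' ↔ ∃ g ∈ G, (∀ x, x ∈ X ↔ g * x * g⁻¹ ∈ X) ∧ ∀ y, (g' y : Ω) = g y) ∧
      (∀ g', g' ∈ A' ↔ ∃ g ∈ A, (∀ x, x ∈ X ↔ g * x * g⁻¹ ∈ X) ∧ ∀ y, (g' y : Ω) = g y) := by
  classical
  haveI := c.hfin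
  have huinv : u⁻¹ = u := inv_eq_of_mul_eq_one_left hu2
  have huu : ∀ x, u (u x) = x := fun x => by rw [← Perm.mul_apply, hu2]; rfl
  have hnorm : ∀ g : Perm Ω, g ∈ G → q (g a) → q (g (u a)) → g ∈ Subgroup.normalizer (X : Set (Perm Ω)) := by
    intro g hg h1 h2
    apply p3_norm hD hX
    intro x hx
    rw [mem_st2]
    refine ⟨⟨G.mul_mem (G.mul_mem (G.inv_mem hg) (hX hx).1.1) hg, ?_⟩, ?_⟩
    · rw [Perm.mul_apply, Perm.mul_apply, (hq _).1 h1 x hx, p3_ias]
    · rw [Perm.mul_apply, Perm.mul_apply, (hq _).1 h2 x hx, p3_ias]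
  have hqa : q a := (hq a).2 fun x hx => (hX hx).1.2
  have hqua : q (u a) := (hq _).2 fun x hx => (hX hx).2
  have huN : u ∈ Subgroup.normalizer (X : Set (Perm Ω)) := hnorm u (c.hAG hu) hqua (by rw [huu]; exact hqa)
  have haua : a ≠ u a := (huf a).symm
  refine ⟨?_, (G.subgroupOf _).map (p3_res hq), (A.subgroupOf _).map (p3_res hq), ?_, p3_mem hq G, p3_mem hq A⟩
  · intro x hx
    have := (Subgroup.mem_normalizer_iff.1 huN x).1 hx
    rwa [huinv] at this
  have hAcomm : ∀ x ∈ A, ∀ y ∈ A, x * y = y * x := by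
    intro x hx y hy
    haveI := c.hA
    have := (IsCyclic.commGroup (α := A)).mul_comm ⟨x, hx⟩ ⟨y, hy⟩
    exact congrArg Subtype.val this
  -- transitivity from the base pair
  have hbase2 : ∀ x y : Ω, q x → q y → x ≠ y → ∃ g ∈ G, g ∈ Subgroup.normalizer (X : Set (Perm Ω)) ∧ g a = x ∧ g (u a) = y := by
    intro x y hx hy hxy
    obtain ⟨g, hg, h1, h2⟩ := c.h2 a (u a) x y haua hxy
    exact ⟨g, hg, hnorm g hg (by rw [h1]; exact hx) (by rw [h2]; exact hy), h1, h2⟩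
  have hbase1 : ∀ x : Ω, q x → ∃ g ∈ A, g ∈ Subgroup.normalizer (X : Set (Perm Ω)) ∧ g a = x := by
    intro x hx
    obtain ⟨g, hg, h1⟩ := c.hA1 a x
    have h2 : g (u a) = u x := by
      rw [← h1, ← Perm.mul_apply, hAcomm g hg u hu, Perm.mul_apply]
    exact ⟨g, hg, hnorm g (c.hAG hg) (by rw [h1]; exact hx) (by rw [h2]; exact (p3_inv hq huN x).2 hx), h1⟩
  refine
    { h2 := ?_
      hAG := Subgroup.map_mono (Subgroup.comap_mono c.hAG)
      hA := ?_
      hA1 := ?_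
      hZ := ?_
      hev := ?_
      hne := ⟨⟨a, hqa⟩⟩
      hfin := inferInstance }
  · rintro ⟨x, hx⟩ ⟨y, hy⟩ ⟨x', hx'⟩ ⟨y', hy'⟩ hxy hxy'
    obtain ⟨g, hg, hgN, h1, h2⟩ := hbase2 x y hx hy (fun h => hxy (Subtype.ext h))
    obtain ⟨k, hk, hkN, h3, h4⟩ := hbase2 x' y' hx' hy' (fun h => hxy' (Subtype.ext h))
    refine ⟨p3_res hq ⟨k * g⁻¹, mul_mem hkN (inv_mem hgN)⟩, ⟨_, G.mul_mem hk (G.inv_mem hg), rfl⟩, Subtype.ext ?_, Subtype.ext ?_⟩
    · show k (g⁻¹ x) = x'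
      rw [← h1, p3_ias, h3]
    · show k (g⁻¹ y) = y'
      rw [← h2, p3_ias, h4]
  · haveI := c.hA
    haveI : IsCyclic (A.subgroupOf (Subgroup.normalizer (X : Set (Perm Ω)))) := by
      apply isCyclic_of_injective ((Subgroup.normalizer (X : Set (Perm Ω))).subtype.subgroupComap A)
      intro x y hxy
      apply Subtype.ext
      apply Subtype.ext
      exact congrArg (fun z : A => (z : Perm Ω)) hxy
    exact isCyclic_of_surjective _ ((p3_res hq).subgroupMap_surjective _)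
  · rintro ⟨x, hx⟩ ⟨y, hy⟩
    obtain ⟨g, hg, hgN, h1⟩ := hbase1 x hx
    obtain ⟨k, hk, hkN, h3⟩ := hbase1 y hy
    refine ⟨p3_res hq ⟨k * g⁻¹, mul_mem hkN (inv_mem hgN)⟩, ⟨_, A.mul_mem hk (A.inv_mem hg), rfl⟩, Subtype.ext ?_⟩
    show k (g⁻¹ x) = y
    rw [← h1, p3_ias, h3]
  · rintro ⟨x, hx⟩
    have hst : st ((G.subgroupOf _).map (p3_res hq)) ⟨x, hx⟩ = ((st G x).subgroupOf _).map (p3_res hq) := by
      ext g'
      constructor
      · rintro ⟨⟨g, hg, rfl⟩, hfix⟩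
        exact ⟨g, ⟨hg, congrArg Subtype.val hfix⟩, rfl⟩
      · rintro ⟨g, ⟨hg, hfix⟩, rfl⟩
        exact ⟨⟨g, hg, rfl⟩, Subtype.ext hfix⟩
    rw [hst]
    haveI := c.hZ x
    haveI : IsZGroup ((st G x).subgroupOf (Subgroup.normalizer (X : Set (Perm Ω)))) := by
      apply IsZGroup.of_injective (f := (Subgroup.normalizer (X : Set (Perm Ω))).subtype.subgroupComap (st G x))
      intro x y hxy
      apply Subtype.ext
      apply Subtype.ext
      exact congrArg (fun z : st G _ => (z : Perm Ω)) hxy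
    exact IsZGroup.of_surjective ((p3_res hq).subgroupMap_surjective _)
  · haveI : Fintype {x : Ω // q x} := Fintype.ofFinite _
    have h1 := Equiv.Perm.two_dvd_card_support (σ := p3_res hq ⟨u, huN⟩) (by
      rw [pow_two, ← map_mul]
      have : (⟨u, huN⟩ * ⟨u, huN⟩ : ↥(Subgroup.normalizer (X : Set (Perm Ω)))) = 1 := Subtype.ext hu2
      rw [this, map_one])
    have h2 : (p3_res hq ⟨u, huN⟩).support = Finset.univ := by
      rw [Finset.eq_univ_iff_forall]
      intro y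
      rw [Equiv.Perm.mem_support]
      intro h
      exact huf y.1 (congrArg Subtype.val h)
    rw [h2, Finset.card_univ] at h1
    rw [Nat.card_eq_fintype_card]
    exact even_iff_two_dvd.2 h1

end Cfsg.Agent.Lib.AB68
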