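import Mathlib
import Cfsg.Agent.Lib.AB68

/-!
# Products of a cyclic group and a Z-group (S3252), piece P1 (helper84)
-/

set_option autoImplicit false

namespace Cfsg.Agent.Lib.AB68

open Equiv

universe u
variable {Ω : Type u}

theorem L1 [Finite Ω] [Nonempty Ω] (G A : Subgroup (Perm Ω)) (h2 : M2 G) (hAG : A ≤ G) (hA : IsCyclic A)
    (hA1 : M1 A) (hev : Even (Nat.card Ω)) (a : Ω) (hodd : Odd (Nat.card (st G a))) : Nat.card Ω = 2 := by
  classical
  have : Finite (Perm Ω) := inferInstance
  have : Finite G := inferInstance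
  have hcomm : ∀ g ∈ A, ∀ h ∈ A, g * h = h * g := by
    intro g hg h hh
    let _ := hA.commGroup
    exact congrArg Subtype.val (mul_comm (⟨g, hg⟩ : A) ⟨h, hh⟩)
  have hreg : ∀ g ∈ A, ∀ h ∈ A, g a = h a → g = h := by
    intro g hg h hh hgh
    ext x
    obtain ⟨k, hk, rfl⟩ := hA1 a x
    rw [← Perm.mul_apply, ← Perm.mul_apply, hcomm g hg k hk, hcomm h hh k hk, Perm.mul_apply, Perm.mul_apply, hgh]
  have hcA : Nat.card A = Nat.card Ω := by
    refine Nat.card_congr (Equiv.ofBijective (fun g : A => (g : Perm Ω) a) ⟨?_, ?_⟩)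
    · intro g h hgh
      exact Subtype.ext (hreg g.1 g.2 h.1 h.2 hgh)
    · intro x
      obtain ⟨k, hk, hx⟩ := hA1 a x
      exact ⟨⟨k, hk⟩, hx⟩
  have hcG : Nat.card G = Nat.card A * Nat.card (st G a) := by
    rw [← Nat.card_prod]
    refine (Nat.card_congr (Equiv.ofBijective (fun p : A × st G a => (⟨p.1.1 * p.2.1, G.mul_mem (hAG p.1.2) p.2.2.1⟩ : G))
      ⟨?_, ?_⟩)).symm
    · rintro ⟨e, s⟩ ⟨e', s'⟩ h
      have h1 : e.1 * s.1 = e'.1 * s'.1 := congrArg Subtype.val h
      have h2 : e.1 a = e'.1 a := by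
        have := congrArg (fun x : Perm Ω => x a) h1
        simpa [Perm.mul_apply, s.2.2, s'.2.2] using this
      have h3 : e = e' := Subtype.ext (hreg _ e.2 _ e'.2 h2)
      subst h3
      exact Prod.ext rfl (Subtype.ext (mul_left_cancel h1))
    · intro g
      obtain ⟨e, he, hea⟩ := hA1 a (g.1 a)
      refine ⟨(⟨e, he⟩, ⟨e⁻¹ * g.1, G.mul_mem (G.inv_mem (hAG he)) g.2, ?_⟩), ?_⟩
      · rw [Perm.mul_apply, Perm.inv_eq_iff_eq, hea]
      · apply Subtype.ext
        show e * (e⁻¹ * g.1) = g.1
        group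
  have hA0 : Nat.card A ≠ 0 := Nat.card_pos.ne'
  have hs0 : Nat.card (st G a) ≠ 0 := Nat.card_pos.ne'
  have hfac : (Nat.card G).factorization 2 = (Nat.card A).factorization 2 := by
    rw [hcG, Nat.factorization_mul hA0 hs0, Finsupp.add_apply,
      Nat.factorization_eq_zero_of_not_dvd (n := Nat.card (st G a)) (p := 2) (by
        intro h; exact (Nat.not_even_iff_odd.2 hodd) (even_iff_two_dvd.2 h)), add_zero]
  have : Fact (Nat.Prime 2) := ⟨Nat.prime_two⟩
  -- a cyclic Sylow 2-subgroup
  obtain ⟨P, hP⟩ : ∃ P : Sylow 2 G, IsCyclic P := by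
    let PA : Sylow 2 A := default
    let f : A →* G := Subgroup.inclusion hAG
    have hf : Function.Injective f := Subgroup.inclusion_injective hAG
    have h1 : IsPGroup 2 ((PA : Subgroup A).map f) := PA.2.map f
    obtain ⟨P, hle⟩ := h1.exists_le_sylow
    have hc1 : Nat.card ((PA : Subgroup A).map f) = Nat.card PA :=
      (Nat.card_congr ((PA : Subgroup A).equivMapOfInjective f hf).toEquiv).symm
    have hc2 : Nat.card P = Nat.card PA := by
      rw [P.card_eq_multiplicity, PA.card_eq_multiplicity, hfac]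
    have heq : (PA : Subgroup A).map f = (P : Subgroup G) := by
      apply Subgroup.eq_of_le_of_card_ge hle
      rw [hc1]
      exact hc2.le
    refine ⟨P, ?_⟩
    have h3 : IsCyclic ((PA : Subgroup A).map f) :=
      isCyclic_of_surjective ((PA : Subgroup A).equivMapOfInjective f hf) (MulEquiv.surjective _)
    have h4 : IsCyclic (P : Subgroup G) := by rw [← heq]; exact h3
    exact h4
  have hG2 : (Nat.card G).minFac = 2 := by
    rw [Nat.minFac_eq_two_iff, hcG, hcA]
    exact Dvd.dvd.mul_right (even_iff_two_dvd.1 hev) _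
  obtain ⟨M, hMn, hMc⟩ : ∃ M : Subgroup G, M.Normal ∧ Nat.card M * Nat.card P = Nat.card G :=
    ⟨_, MonoidHom.normal_ker _, (hP.isComplement' hG2).card_mul_card⟩
  have hMi : Nat.card M = (P : Subgroup G).index := by
    have h1 := (P : Subgroup G).index_mul_card
    have h2 : 0 < Nat.card P := Nat.card_pos
    exact Nat.eq_of_mul_eq_mul_right h2 (hMc.trans h1.symm)
  have hMo : ¬ 2 ∣ Nat.card M := by
    rw [hMi]; exact P.not_dvd_index
  by_cases hMb : M = ⊥
  · -- G is a 2-group
    have h1 : Nat.card G = 2 ^ (Nat.card G).factorization 2 := by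
      conv_lhs => rw [← hMc, hMb, Subgroup.card_bot, one_mul]
      exact P.card_eq_multiplicity
    have h3 : Nat.card (st G a) ∣ 2 ^ (Nat.card G).factorization 2 := by
      rw [← h1, hcG]; exact dvd_mul_left _ _
    obtain ⟨j, hj, hj2⟩ := (Nat.dvd_prime_pow Nat.prime_two).1 h3
    have hj0 : j = 0 := by
      by_contra h
      rw [hj2] at hodd
      exact (Nat.not_even_iff_odd.2 hodd) ((Nat.even_pow' h).2 even_two)
    rw [hj0, pow_zero] at hj2
    have hst : ∀ g ∈ st G a, g = 1 := by
      intro g hg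
      have := (Subgroup.card_eq_one.1 hj2)
      rw [this] at hg
      exact Subgroup.mem_bot.1 hg
    have hle : Nat.card Ω ≤ 2 := by
      by_contra hcon
      push Not at hcon
      have := Fintype.ofFinite Ω
      rw [Nat.card_eq_fintype_card] at hcon
      have h5 : ∃ b : Ω, b ≠ a := by
        have : Nontrivial Ω := Fintype.one_lt_card_iff_nontrivial.1 (by omega)
        exact exists_ne a
      obtain ⟨b, hb⟩ := h5
      have h6 : ∃ c : Ω, c ≠ a ∧ c ≠ b := by
        by_contra h7
        push Not at h7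
        have h8 : (Finset.univ : Finset Ω) ⊆ {a, b} := by
          intro x _
          by_cases hx : x = a
          · simp [hx]
          · simp [h7 x hx]
        have h9 := Finset.card_le_card h8
        rw [Finset.card_univ] at h9
        have := Finset.card_le_two (a := a) (b := b)
        omega
      obtain ⟨c, hca, hcb⟩ := h6
      obtain ⟨g, hg, hga, hgb⟩ := h2 a b a c (Ne.symm hb) (Ne.symm hca)
      have h7 := hst g ⟨hg, hga⟩
      rw [h7] at hgb
      exact hcb hgb.symm
    have hpos : 0 < Nat.card Ω := Nat.card_pos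
    obtain ⟨k, hk⟩ := hev
    omega
  · exfalso
    apply hMo
    obtain ⟨m, hm, hm1⟩ : ∃ m ∈ M, m ≠ 1 := by
      by_contra hcon
      push Not at hcon
      exact hMb ((Subgroup.eq_bot_iff_forall M).2 hcon)
    obtain ⟨x, hx⟩ : ∃ x : Ω, m.1 x ≠ x := by
      by_contra hcon
      push Not at hcon
      exact hm1 (Subtype.ext (Equiv.ext hcon))
    have htr : MulAction.IsPretransitive M Ω := by
      constructor
      intro b c
      by_cases hbc : b = c
      · exact ⟨1, by rw [one_smul, hbc]⟩
      · obtain ⟨g, hg, hgx, hgm⟩ := h2 x (m.1 x) b c (Ne.symm hx) hbc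
        refine ⟨⟨⟨g, hg⟩ * m * ⟨g, hg⟩⁻¹, hMn.conj_mem m hm ⟨g, hg⟩⟩, ?_⟩
        show (g * m.1 * g⁻¹) b = c
        rw [Perm.mul_apply, Perm.mul_apply, ← hgm, ← hgx]
        congr 2
        rw [Perm.inv_eq_iff_eq]
    have h1 : (MulAction.stabilizer M a).index = Nat.card Ω := MulAction.index_stabilizer_of_transitive M a
    have h3 : Nat.card Ω ∣ Nat.card M := by rw [← h1]; exact Subgroup.index_dvd_card _
    exact (even_iff_two_dvd.1 hev).trans h3

end Cfsg.Agent.Lib.AB68
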