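import Mathlib
import Cfsg.Agent.Lib.AB68
import Cfsg.Agent.Lib.SchurZassenhaus
import Cfsg.Agent.Lib.PowerGraph

/-! S3252, piece P2 (helper3): Z-groups with a core free subgroup. -/

set_option autoImplicit false

namespace Cfsg.Agent.Lib.AB68

open Equiv
open scoped Pointwise commutatorElement

universe u
variable {Ω : Type u}

theorem zg {B : Type*} [Group B] [Finite B] [IsZGroup B] (D : Subgroup B) (hcore : D.normalCore = ⊥) :
    ∃ F : Subgroup B, F.Normal ∧ IsCyclic F ∧ Subgroup.centralizer (F : Set B) = F ∧ F ⊓ D = ⊥ ∧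
      (Nat.card F).Coprime (Nat.card D) ∧ IsCyclic D ∧ ((∀ g, (∀ d ∈ D, g * d * g⁻¹ ∈ D) → g ∈ D) → F ⊔ D = ⊤) := by
  classical
  have hcyc := IsZGroup.isCyclic_commutator B
  have h0 : ∀ x ∈ commutator B, ∀ y ∈ commutator B, x * y = y * x := by
    intro x hx y hy
    letI := IsCyclic.commGroup (α := commutator B)
    exact congrArg Subtype.val (mul_comm (⟨x, hx⟩ : commutator B) ⟨y, hy⟩)
  obtain ⟨F, hF⟩ := Set.Finite.exists_maximal
    (s := {F : Subgroup B | commutator B ≤ F ∧ ∀ x ∈ F, ∀ y ∈ F, x * y = y * x}) (Set.toFinite _) ⟨_, le_rfl, h0⟩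
  have hBF : commutator B ≤ F := hF.prop.1
  have hab : ∀ x ∈ F, ∀ y ∈ F, x * y = y * x := hF.prop.2
  have hcomm : ∀ g h : B, g * h * g⁻¹ * h⁻¹ ∈ F := fun g h =>
    hBF (Subgroup.commutator_mem_commutator (Subgroup.mem_top g) (Subgroup.mem_top h))
  have hnorm : ∀ L : Subgroup B, F ≤ L → L.Normal := fun L hL => ⟨fun f hf g => by
    have h1 : g * f * g⁻¹ = g * f * g⁻¹ * f⁻¹ * f := by group
    rw [h1]
    exact L.mul_mem (hL (hcomm g f)) hf⟩
  have hFn : F.Normal := hnorm F le_rfl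
  have hFcyc : IsCyclic F := by
    letI : CommGroup F := { (inferInstance : Group F) with
      mul_comm := fun a b => Subtype.ext (hab a a.2 b b.2) }
    have : Group.IsNilpotent F := inferInstance
    infer_instance
  have hcent : Subgroup.centralizer (F : Set B) = F := by
    apply le_antisymm
    · intro x hx
      rw [Subgroup.mem_centralizer_iff] at hx
      have h1 : F ⊔ Subgroup.zpowers x ≤ F := by
        refine hF.le_of_ge (y := F ⊔ Subgroup.zpowers x) ⟨hBF.trans le_sup_left, ?_⟩ le_sup_left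
        intro y hy z hz
        rw [Subgroup.mem_sup_of_normal_left] at hy hz
        obtain ⟨f, hf, w, hw, rfl⟩ := hy
        obtain ⟨f', hf', w', hw', rfl⟩ := hz
        obtain ⟨i, rfl⟩ := Subgroup.mem_zpowers_iff.mp hw
        obtain ⟨j, rfl⟩ := Subgroup.mem_zpowers_iff.mp hw'
        have c1 : Commute f f' := hab f hf f' hf'
        have c2 : Commute f x := hx f hf
        have c3 : Commute f' x := hx f' hf'
        have e : Commute (f * x ^ i) (f' * x ^ j) :=
          Commute.mul_left (Commute.mul_right c1 (c2.zpow_right j))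
            (Commute.mul_right (c3.zpow_right i).symm ((Commute.refl x).zpow_zpow i j))
        exact e
      exact h1 (Subgroup.mem_sup_right (Subgroup.mem_zpowers x))
    · intro x hx
      rw [Subgroup.mem_centralizer_iff]
      intro y hy
      exact hab y hy x hx
  -- subgroups of F are normal
  obtain ⟨z, hz⟩ : ∃ z : B, F = Subgroup.zpowers z := by
    obtain ⟨z, hz⟩ := hFcyc.exists_generator
    refine ⟨z, le_antisymm ?_ ?_⟩
    · intro f hf
      obtain ⟨k, hk⟩ := Subgroup.mem_zpowers_iff.mp (hz ⟨f, hf⟩)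
      exact Subgroup.mem_zpowers_iff.mpr ⟨k, congrArg Subtype.val hk⟩
    · rw [Subgroup.zpowers_le]; exact z.2
  have hsub : ∀ L : Subgroup B, L ≤ F → L.Normal := by
    intro L hL
    refine ⟨fun f hf g => ?_⟩
    have h1 : g * z * g⁻¹ ∈ F := hFn.conj_mem z (hz ▸ Subgroup.mem_zpowers z) g
    rw [hz] at h1
    obtain ⟨m, hm⟩ := Subgroup.mem_zpowers_iff.mp h1
    have hf' := hL hf
    rw [hz] at hf'
    obtain ⟨k, rfl⟩ := Subgroup.mem_zpowers_iff.mp hf'
    have h2 : g * z ^ k * g⁻¹ = (z ^ k) ^ m := by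
      rw [← conj_zpow, ← hm, ← zpow_mul, ← zpow_mul, mul_comm]
    rw [h2]
    exact L.zpow_mem hf m
  have hFD : F ⊓ D = ⊥ := by
    have h1 := hsub (F ⊓ D) inf_le_left
    rw [eq_bot_iff, ← hcore]
    exact Subgroup.normal_le_normalCore.mpr inf_le_right
  have hcop : (Nat.card F).Coprime (Nat.card D) := by
    by_contra hnc
    obtain ⟨r, hr, hrF, hrD⟩ := Nat.Prime.not_coprime_iff_dvd.mp hnc
    haveI : Fact r.Prime := ⟨hr⟩
    obtain ⟨x, hx⟩ := exists_prime_orderOf_dvd_card' r hrD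
    obtain ⟨y, hy⟩ := exists_prime_orderOf_dvd_card' r hrF
    have hx' : orderOf (x : B) = r := by rw [Subgroup.orderOf_coe]; exact hx
    have hy' : orderOf (y : B) = r := by rw [Subgroup.orderOf_coe]; exact hy
    have hYn : (Subgroup.zpowers (y : B)).Normal := hsub _ (by rw [Subgroup.zpowers_le]; exact y.2)
    have pX : IsPGroup r (Subgroup.zpowers (x : B)) := IsPGroup.of_card (n := 1) (by rw [Nat.card_zpowers, hx', pow_one])
    have pY : IsPGroup r (Subgroup.zpowers (y : B)) := IsPGroup.of_card (n := 1) (by rw [Nat.card_zpowers, hy', pow_one])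
    have pXY := pX.to_sup_of_normal_right pY
    have hc := pXY.isCyclic_of_isZGroup
    obtain ⟨m, hm⟩ := hc.exists_generator
    have hxm : (x : B) ∈ Subgroup.zpowers (m : B) := by
      obtain ⟨k, hk⟩ := Subgroup.mem_zpowers_iff.mp (hm ⟨x, Subgroup.mem_sup_left (Subgroup.mem_zpowers _)⟩)
      exact Subgroup.mem_zpowers_iff.mpr ⟨k, congrArg Subtype.val hk⟩
    have hym : (y : B) ∈ Subgroup.zpowers (m : B) := by
      obtain ⟨k, hk⟩ := Subgroup.mem_zpowers_iff.mp (hm ⟨y, Subgroup.mem_sup_right (Subgroup.mem_zpowers _)⟩)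
      exact Subgroup.mem_zpowers_iff.mpr ⟨k, congrArg Subtype.val hk⟩
    have h1 := Cfsg.Agent.Lib.PowerGraph.zpowers_eq_of_orderOf_eq hxm hym (hx'.trans hy'.symm)
    have h2 : (x : B) ∈ F := by
      have : (x : B) ∈ Subgroup.zpowers (y : B) := by rw [← h1]; exact Subgroup.mem_zpowers _
      exact (Subgroup.zpowers_le.mpr y.2) this
    have h3 : (x : B) ∈ F ⊓ D := ⟨h2, x.2⟩
    rw [hFD, Subgroup.mem_bot] at h3
    rw [h3, orderOf_one] at hx'
    exact hr.one_lt.ne hx'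
  have hDcomm : ∀ x ∈ D, ∀ y ∈ D, x * y = y * x := by
    intro x hx y hy
    have h1 : x * y * x⁻¹ * y⁻¹ ∈ F ⊓ D :=
      ⟨hcomm x y, D.mul_mem (D.mul_mem (D.mul_mem hx hy) (D.inv_mem hx)) (D.inv_mem hy)⟩
    rw [hFD, Subgroup.mem_bot] at h1
    calc x * y = (x * y * x⁻¹ * y⁻¹) * (y * x) := by group
      _ = y * x := by rw [h1, one_mul]
  have hDcyc : IsCyclic D := by
    letI : CommGroup D := { (inferInstance : Group D) with
      mul_comm := fun a b => Subtype.ext (hDcomm a a.2 b b.2) }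
    have : Group.IsNilpotent D := inferInstance
    infer_instance
  refine ⟨F, hFn, hFcyc, hcent, hFD, hcop, hDcyc, fun hN => ?_⟩
  rw [eq_top_iff]
  intro b _
  have hn : (F ⊔ D).Normal := hnorm _ le_sup_left
  have e1 : MulAut.conj b • F = F := by
    ext x
    rw [Subgroup.mem_pointwise_smul_iff_inv_smul_mem, ← map_inv, MulAut.smul_def, MulAut.conj_apply]
    constructor
    · intro h
      have := hFn.conj_mem _ h b
      have e : b * (b⁻¹ * x * b⁻¹⁻¹) * b⁻¹ = x := by group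
      rwa [e] at this
    · intro h
      exact hFn.conj_mem _ h b⁻¹
  have e2 : MulAut.conj b • (F ⊔ D) = F ⊔ D := by
    ext x
    rw [Subgroup.mem_pointwise_smul_iff_inv_smul_mem, ← map_inv, MulAut.smul_def, MulAut.conj_apply]
    constructor
    · intro h
      have := hn.conj_mem _ h b
      have e : b * (b⁻¹ * x * b⁻¹⁻¹) * b⁻¹ = x := by group
      rwa [e] at this
    · intro h
      exact hn.conj_mem _ h b⁻¹
  have e3 : F ⊔ D = F ⊔ (MulAut.conj b • D) := by
    rw [← e2, Subgroup.smul_sup, e1]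
  obtain ⟨a, ha, hconj⟩ := Cfsg.Agent.Lib.SchurZassenhaus.conj_of_solvable (N := F) (H := D) (K := MulAut.conj b • D)
    Subgroup.le_normalizer_of_normal Subgroup.le_normalizer_of_normal e3 hcop
    (by rw [← Nat.card_congr (Subgroup.equivSMul (MulAut.conj b) D).toEquiv]; exact hcop) (Or.inl inferInstance)
  have h5 : a⁻¹ * b ∈ D := by
    apply hN
    intro d hd
    have h6 : b * d * b⁻¹ ∈ MulAut.conj a • D := by
      rw [hconj]
      have := Subgroup.smul_mem_pointwise_smul d (MulAut.conj b) D hd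
      rwa [MulAut.smul_def, MulAut.conj_apply] at this
    rw [Subgroup.mem_pointwise_smul_iff_inv_smul_mem, ← map_inv, MulAut.smul_def, MulAut.conj_apply] at h6
    have e : a⁻¹ * b * d * (a⁻¹ * b)⁻¹ = a⁻¹ * (b * d * b⁻¹) * a⁻¹⁻¹ := by group
    rw [e]; exact h6
  have e : b = a * (a⁻¹ * b) := by group
  rw [e]
  exact Subgroup.mul_mem _ (Subgroup.mem_sup_left ha) (Subgroup.mem_sup_right h5)

theorem zgP {G A : Subgroup (Perm Ω)} (c : Cfg G A) {a b : Ω} (hab : a ≠ b) : ∃ F : Subgroup (Perm Ω),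
    F ≤ st G a ∧ (∀ g ∈ st G a, ∀ f ∈ F, g * f * g⁻¹ ∈ F) ∧ IsCyclic F ∧
    (∀ g ∈ st G a, (∀ f ∈ F, g * f = f * g) → g ∈ F) ∧ (∀ f ∈ F, f b = b → f = 1) ∧
    (Nat.card F).Coprime (Nat.card (st2 G a b)) ∧ IsCyclic (st2 G a b) ∧
    ((∀ g ∈ st G a, (∀ d ∈ st2 G a b, g * d * g⁻¹ ∈ st2 G a b) → g ∈ st2 G a b) →
      ∀ g ∈ st G a, ∃ f ∈ F, ∃ d ∈ st2 G a b, g = f * d) := by
  classical
  haveI := c.hfin
  haveI : Finite (Perm Ω) := inferInstance
  haveI := c.hZ a
  have hle : st2 G a b ≤ st G a := fun g hg => hg.1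
  have hcore : ((st2 G a b).subgroupOf (st G a)).normalCore = ⊥ := by
    rw [eq_bot_iff]
    intro x hx
    rw [Subgroup.mem_bot]
    apply Subtype.ext
    apply Equiv.ext
    intro y
    by_cases hy : y = a
    · rw [hy]
      exact x.2.2
    · obtain ⟨g, hg, hga, hgb⟩ := c.h2 a b a y hab (Ne.symm hy)
      have hgs : g ∈ st G a := ⟨hg, hga⟩
      have h1 : (⟨g, hgs⟩ : st G a)⁻¹ * x * (⟨g, hgs⟩ : st G a)⁻¹⁻¹ ∈ ((st2 G a b).subgroupOf (st G a)).normalCore :=
        Subgroup.Normal.conj_mem inferInstance x hx _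
      have h2 := Subgroup.normalCore_le _ h1
      have h3 : ((g⁻¹ * (x : Perm Ω) * g⁻¹⁻¹ : Perm Ω)) b = b := h2.2
      rw [inv_inv, Perm.mul_apply, Perm.mul_apply, hgb, Perm.inv_eq_iff_eq, hgb] at h3
      exact h3
  obtain ⟨F, hFn, hFc, hFC, hFD, hcop, hDc, hlast⟩ := zg _ hcore
  have hm : ∀ f : Perm Ω, f ∈ F.map (st G a).subtype ↔ ∃ h : f ∈ st G a, (⟨f, h⟩ : st G a) ∈ F := by
    intro f
    constructor
    · rintro ⟨y, hy, rfl⟩
      exact ⟨y.2, hy⟩
    · rintro ⟨h, hf⟩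
      exact ⟨_, hf, rfl⟩
  refine ⟨F.map (st G a).subtype, ?_, ?_, ?_, ?_, ?_, ?_, ?_, ?_⟩
  · intro f hf
    exact ((hm f).mp hf).1
  · intro g hg f hf
    obtain ⟨h, hf⟩ := (hm f).mp hf
    rw [hm]
    exact ⟨(st G a).mul_mem ((st G a).mul_mem hg h) ((st G a).inv_mem hg), hFn.conj_mem _ hf ⟨g, hg⟩⟩
  · exact isCyclic_of_surjective _ (Subgroup.equivMapOfInjective F _ (st G a).subtype_injective).surjective
  · intro g hg hgf
    rw [hm]
    refine ⟨hg, ?_⟩
    rw [← hFC, Subgroup.mem_centralizer_iff]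
    intro f hf
    apply Subtype.ext
    exact (hgf f ((hm _).mpr ⟨f.2, hf⟩)).symm
  · intro f hf hfb
    obtain ⟨h, hf⟩ := (hm f).mp hf
    have h1 : (⟨f, h⟩ : st G a) ∈ F ⊓ (st2 G a b).subgroupOf (st G a) := ⟨hf, ⟨h, hfb⟩⟩
    rw [hFD, Subgroup.mem_bot] at h1
    exact congrArg Subtype.val h1
  · have e1 : Nat.card (F.map (st G a).subtype) = Nat.card F :=
      (Nat.card_congr (Subgroup.equivMapOfInjective F _ (st G a).subtype_injective).toEquiv).symm
    have e2 : Nat.card ((st2 G a b).subgroupOf (st G a)) = Nat.card (st2 G a b) :=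
      Nat.card_congr (Subgroup.subgroupOfEquivOfLe hle).toEquiv
    rw [e1, ← e2]
    exact hcop
  · exact isCyclic_of_surjective _ (Subgroup.subgroupOfEquivOfLe hle).surjective
  · intro hN g hg
    have h1 := hlast (by
      intro g' hg'
      apply hN g' g'.2
      intro d hd
      exact hg' ⟨d, hle hd⟩ hd)
    have h2 : (⟨g, hg⟩ : st G a) ∈ F ⊔ (st2 G a b).subgroupOf (st G a) := by rw [h1]; trivial
    rw [Subgroup.mem_sup_of_normal_left] at h2
    obtain ⟨f, hf, d, hd, hfd⟩ := h2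
    exact ⟨f, (hm _).mpr ⟨f.2, hf⟩, d, hd, (congrArg Subtype.val hfd).symm⟩

end Cfsg.Agent.Lib.AB68
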