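import Mathlib
import Cfsg.Agent.Lib.AB68
import Cfsg.Agent.Lib.AB68_P1
import Cfsg.Agent.Lib.AB68_P2
import Cfsg.Agent.Lib.AB68_P3

/-! Piece P4 of S3252 (helper75 for helper68). -/

set_option autoImplicit false
set_option linter.all false

namespace Cfsg.Agent.Lib.AB68

open Equiv

universe u
variable {Ω : Type u}

theorem p4_reg {A : Subgroup (Perm Ω)} (hA : IsCyclic A) (hA1 : M1 A) {g : Perm Ω} (hg : g ∈ A) {x : Ω}
    (hx : g x = x) : g = 1 := by
  ext y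
  obtain ⟨e, he, rfl⟩ := hA1 x y
  have hc : g * e = e * g := by
    have := hA.commutative.is_comm.comm (⟨g, hg⟩ : A) ⟨e, he⟩
    exact congrArg Subtype.val this
  rw [← Perm.mul_apply, hc, Perm.mul_apply, hx]
  rfl

theorem p4_cardA {A : Subgroup (Perm Ω)} (hA : IsCyclic A) (hA1 : M1 A) (a : Ω) : Nat.card A = Nat.card Ω := by
  refine Nat.card_congr (Equiv.ofBijective (fun g : A => (g : Perm Ω) a) ⟨?_, ?_⟩)
  · intro g h hgh
    have h1 : ((h⁻¹ * g : A) : Perm Ω) = 1 := by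
      apply p4_reg hA hA1 (h⁻¹ * g : A).2 (x := a)
      change ((h : Perm Ω)⁻¹ * (g : Perm Ω)) a = a
      rw [Perm.mul_apply, Perm.inv_eq_iff_eq]
      exact hgh
    have h2 : h⁻¹ * g = 1 := Subtype.ext h1
    exact (inv_mul_eq_one.1 h2).symm
  · intro x
    obtain ⟨g, hg, hgx⟩ := hA1 a x
    exact ⟨⟨g, hg⟩, hgx⟩

/-- P4 with the other pieces as hypotheses -/
theorem exists_FD_aux
    (hL1 : ∀ (Ω : Type u) [Finite Ω] [Nonempty Ω] (G A : Subgroup (Perm Ω)) (h2 : M2 G) (hAG : A ≤ G) (hA : IsCyclic A)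
      (hA1 : M1 A) (hev : Even (Nat.card Ω)) (a : Ω) (hodd : Odd (Nat.card (st G a))), Nat.card Ω = 2)
    (hzgP : ∀ (Ω : Type u) {G A : Subgroup (Perm Ω)} (c : Cfg G A) {a b : Ω} (hab : a ≠ b), ∃ F : Subgroup (Perm Ω),
      F ≤ st G a ∧ (∀ g ∈ st G a, ∀ f ∈ F, g * f * g⁻¹ ∈ F) ∧ IsCyclic F ∧
      (∀ g ∈ st G a, (∀ f ∈ F, g * f = f * g) → g ∈ F) ∧ (∀ f ∈ F, f b = b → f = 1) ∧
      (Nat.card F).Coprime (Nat.card (st2 G a b)) ∧ IsCyclic (st2 G a b) ∧
      ((∀ g ∈ st G a, (∀ d ∈ st2 G a b, g * d * g⁻¹ ∈ st2 G a b) → g ∈ st2 G a b) →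
        ∀ g ∈ st G a, ∃ f ∈ F, ∃ d ∈ st2 G a b, g = f * d))
    (hP3 : ∀ (Ω : Type u) {G A : Subgroup (Perm Ω)} (c : Cfg G A) (u : Perm Ω) (hu : u ∈ A) (hu2 : u * u = 1)
      (huf : ∀ x, u x ≠ x) (a : Ω) (hD : IsCyclic (st2 G a (u a))) (X : Subgroup (Perm Ω))
      (hX : X ≤ st2 G a (u a)) (q : Ω → Prop) (hq : ∀ x, q x ↔ ∀ g ∈ X, g x = x),
      (∀ x ∈ X, u * x * u ∈ X) ∧
      ∃ G' A' : Subgroup (Perm {x : Ω // q x}), Cfg G' A' ∧
        (∀ g', g' ∈ G' ↔ ∃ g ∈ G, (∀ x, x ∈ X ↔ g * x * g⁻¹ ∈ X) ∧ ∀ y, (g' y : Ω) = g y) ∧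
        (∀ g', g' ∈ A' ↔ ∃ g ∈ A, (∀ x, x ∈ X ↔ g * x * g⁻¹ ∈ X) ∧ ∀ y, (g' y : Ω) = g y))
    {G A : Subgroup (Perm Ω)} (c : Cfg G A) (hn : Nat.card Ω ≠ 2) (a : Ω) :
    ∃ (u : Perm Ω) (F D : Subgroup (Perm Ω)), FD G A F D u a := by
  classical
  have hfin : Finite Ω := c.hfin
  have hne : Nonempty Ω := c.hne
  have hcA := p4_cardA c.hA c.hA1 a
  have h2f : Fact (Nat.Prime 2) := ⟨Nat.prime_two⟩
  obtain ⟨u0, hu0⟩ := exists_prime_orderOf_dvd_card' (G := A) 2 (by rw [hcA]; exact c.hev.two_dvd)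
  obtain ⟨u, huA⟩ := u0
  have hu2 : u * u = 1 := by
    have := pow_orderOf_eq_one (⟨u, huA⟩ : A)
    rw [hu0, pow_two] at this
    exact congrArg Subtype.val this
  have hu1 : u ≠ 1 := by
    rintro rfl
    have : (⟨1, huA⟩ : A) = 1 := rfl
    rw [this, orderOf_one] at hu0
    exact absurd hu0 (by norm_num)
  have huf : ∀ x, u x ≠ x := fun x hx => hu1 (p4_reg c.hA c.hA1 huA hx)
  have hab : a ≠ u a := (huf a).symm
  obtain ⟨F, hF, hFn, hFc, hFC, hFr, hcop, hDc, hfac⟩ := hzgP Ω c hab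
  set D := st2 G a (u a) with hD
  obtain ⟨hDu, G', A', c', hG', hA'⟩ := hP3 Ω c u huA hu2 huf a hDc D le_rfl (fun x => ∀ g ∈ D, g x = x) (fun x => Iff.rfl)
  -- the fixed points of `D`
  have hΦ : ∀ x, (∀ g ∈ D, g x = x) → x = a ∨ x = u a := by
    let a' : {x : Ω // ∀ g ∈ D, g x = x} := ⟨a, fun g hg => (mem_st2.1 hg).1.2⟩
    let b' : {x : Ω // ∀ g ∈ D, g x = x} := ⟨u a, fun g hg => (mem_st2.1 hg).2⟩
    have hab' : a' ≠ b' := fun h => hab (congrArg Subtype.val h)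
    have htriv : ∀ g' ∈ G', g' a' = a' → g' b' = b' → g' = 1 := by
      intro g' hg' h1 h2
      obtain ⟨g, hg, -, hgg⟩ := (hG' g').1 hg'
      have hgD : g ∈ D := by
        refine mem_st2.2 ⟨⟨hg, ?_⟩, ?_⟩
        · have := hgg a'
          rw [h1] at this
          exact this.symm
        · have := hgg b'
          rw [h2] at this
          exact this.symm
      ext y
      rw [hgg y]
      exact y.2 g hgD
    have hfin' := c'.hfin
    have hcard : Nat.card (st G' a') = Nat.card {y : {x : Ω // ∀ g ∈ D, g x = x} // y ≠ a'} := by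
      refine Nat.card_congr (Equiv.ofBijective (fun g : st G' a' => ⟨(g : Perm {x : Ω // ∀ g ∈ D, g x = x}) b', ?_⟩) ⟨?_, ?_⟩)
      · intro h
        apply hab'
        apply (g : Perm {x : Ω // ∀ g ∈ D, g x = x}).injective
        rw [h]
        exact (mem_st.1 g.2).2
      · intro g h hgh
        have h0 : (g : Perm {x : Ω // ∀ g ∈ D, g x = x}) b' = (h : Perm {x : Ω // ∀ g ∈ D, g x = x}) b' := congrArg Subtype.val hgh
        have h1 : ((h : Perm {x : Ω // ∀ g ∈ D, g x = x})⁻¹ * (g : Perm {x : Ω // ∀ g ∈ D, g x = x})) = 1 := by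
          apply htriv _ (G'.mul_mem (G'.inv_mem (mem_st.1 h.2).1) (mem_st.1 g.2).1)
          · rw [Perm.mul_apply, (mem_st.1 g.2).2, Perm.inv_eq_iff_eq]
            exact (mem_st.1 h.2).2.symm
          · rw [Perm.mul_apply, Perm.inv_eq_iff_eq]
            exact h0
        exact Subtype.ext (inv_mul_eq_one.1 h1).symm
      · rintro ⟨y, hy⟩
        obtain ⟨g, hg, hg1, hg2⟩ := c'.h2 a' b' a' y hab' hy.symm
        exact ⟨⟨g, hg, hg1⟩, Subtype.ext hg2⟩
    have hcard2 : Nat.card {y : {x : Ω // ∀ g ∈ D, g x = x} // y ≠ a'} + 1 = Nat.card {x : Ω // ∀ g ∈ D, g x = x} := by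
      have := Fintype.ofFinite {x : Ω // ∀ g ∈ D, g x = x}
      rw [Nat.card_eq_fintype_card, Nat.card_eq_fintype_card]
      have h := Fintype.card_subtype_compl (fun y : {x : Ω // ∀ g ∈ D, g x = x} => y = a')
      rw [Fintype.card_subtype_eq] at h
      have hpos : 0 < Fintype.card {x : Ω // ∀ g ∈ D, g x = x} := Fintype.card_pos_iff.2 ⟨a'⟩
      have h' : Fintype.card {y : {x : Ω // ∀ g ∈ D, g x = x} // y ≠ a'} = Fintype.card {y : {x : Ω // ∀ g ∈ D, g x = x} // ¬ y = a'} := by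
        apply Fintype.card_congr
        exact Equiv.refl _
      omega
    have hodd : Odd (Nat.card (st G' a')) := by
      rw [hcard]
      have := c'.hev
      rw [← hcard2] at this
      rcases Nat.even_or_odd (Nat.card {y : {x : Ω // ∀ g ∈ D, g x = x} // y ≠ a'}) with h | h
      · exact absurd this (by rw [Nat.not_even_iff_odd]; exact h.add_one)
      · exact h
    have hne' : Nonempty {x : Ω // ∀ g ∈ D, g x = x} := ⟨a'⟩
    have h2' := hL1 _ G' A' c'.h2 c'.hAG c'.hA c'.hA1 c'.hev a' hodd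
    intro x hx
    by_contra hcon
    push Not at hcon
    have hx' : (⟨x, hx⟩ : {x : Ω // ∀ g ∈ D, g x = x}) ≠ a' := fun h => hcon.1 (congrArg Subtype.val h)
    have hx'' : (⟨x, hx⟩ : {x : Ω // ∀ g ∈ D, g x = x}) ≠ b' := fun h => hcon.2 (congrArg Subtype.val h)
    have hsub : Nat.card {y : {x : Ω // ∀ g ∈ D, g x = x} // y ≠ a'} = 1 := by omega
    obtain ⟨hs, -⟩ := Nat.card_eq_one_iff_unique.1 hsub
    have := hs.elim ⟨_, hx'⟩ ⟨b', hab'.symm⟩
    exact hx'' (congrArg Subtype.val this)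
  have hN : ∀ g ∈ st G a, (∀ d ∈ D, g * d * g⁻¹ ∈ D) → g ∈ D := by
    intro g hg hgD
    have hfinD : Finite D := inferInstance
    have hsur : ∀ d ∈ D, ∃ d' ∈ D, d = g * d' * g⁻¹ := by
      intro d hd
      let φ : D → D := fun x => ⟨g * x * g⁻¹, hgD x x.2⟩
      have hinj : Function.Injective φ := by
        intro x y hxy
        have := congrArg Subtype.val hxy
        change g * x * g⁻¹ = g * y * g⁻¹ at this
        exact Subtype.ext (by simpa using this)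
      obtain ⟨x, hx⟩ := (Finite.injective_iff_surjective.1 hinj) ⟨d, hd⟩
      exact ⟨x, x.2, (congrArg Subtype.val hx).symm⟩
    have h1 : ∀ d ∈ D, d (g (u a)) = g (u a) := by
      intro d hd
      obtain ⟨d', hd', rfl⟩ := hsur d hd
      have h9 : g⁻¹ (g (u a)) = u a := by rw [Perm.inv_eq_iff_eq]
      rw [Perm.mul_apply, Perm.mul_apply, h9, (mem_st2.1 hd').2]
    rcases hΦ _ h1 with h | h
    · exact absurd (g.injective (h.trans (mem_st.1 hg).2.symm)) (huf a)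
    · exact mem_st2.2 ⟨hg, h⟩
  have hFD := hfac hN
  have hFr' : ∀ x, x ≠ a → ∃! f, f ∈ F ∧ f (u a) = x := by
    intro x hx
    obtain ⟨g, hg, hg1, hg2⟩ := c.h2 a (u a) a x hab hx.symm
    obtain ⟨f, hf, d, hd, rfl⟩ := hFD g ⟨hg, hg1⟩
    rw [Perm.mul_apply, (mem_st2.1 hd).2] at hg2
    refine ⟨f, ⟨hf, hg2⟩, ?_⟩
    rintro f' ⟨hf', hf2⟩
    have h1 := hFr (f⁻¹ * f') (F.mul_mem (F.inv_mem hf) hf') (by
      rw [Perm.mul_apply, hf2, Perm.inv_eq_iff_eq, hg2])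
    exact (inv_mul_eq_one.1 h1).symm
  have hFcard : Nat.card F + 1 = Nat.card Ω := by
    have h1 : Nat.card F = Nat.card {y : Ω // y ≠ a} := by
      refine Nat.card_congr (Equiv.ofBijective (fun f => ⟨(f : Perm Ω) (u a), ?_⟩) ⟨?_, ?_⟩)
      · intro h
        have h2 := (mem_st.1 (hF f.2)).2
        exact huf a ((f : Perm Ω).injective (h.trans h2.symm))
      · intro f f' hff
        have h0 : (f : Perm Ω) (u a) = (f' : Perm Ω) (u a) := congrArg Subtype.val hff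
        have hne2 : (f : Perm Ω) (u a) ≠ a := by
          intro h
          have h2 := (mem_st.1 (hF f.2)).2
          exact huf a ((f : Perm Ω).injective (h.trans h2.symm))
        exact Subtype.ext ((hFr' _ hne2).unique ⟨f.2, rfl⟩ ⟨f'.2, h0.symm⟩)
      · rintro ⟨x, hx⟩
        obtain ⟨f, ⟨hf, hfx⟩, -⟩ := hFr' x hx
        exact ⟨⟨f, hf⟩, Subtype.ext hfx⟩
    rw [h1]
    have := Fintype.ofFinite Ω
    rw [Nat.card_eq_fintype_card, Nat.card_eq_fintype_card]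
    have h := Fintype.card_subtype_compl (fun y : Ω => y = a)
    rw [Fintype.card_subtype_eq] at h
    have hpos : 0 < Fintype.card Ω := Fintype.card_pos_iff.2 ⟨a⟩
    have h' : Fintype.card {y : Ω // y ≠ a} = Fintype.card {y : Ω // ¬ y = a} := by
      apply Fintype.card_congr
      exact Equiv.refl _
    omega
  refine ⟨u, F, D, c, huA, hu2, huf, rfl, hDc, hDu, hF, hFn, hFc, hFC, hFr', hFcard, hFD, ?_⟩
  by_contra hDodd
  rw [Nat.not_even_iff_odd] at hDodd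
  apply hn
  apply hL1 Ω G A c.h2 c.hAG c.hA c.hA1 c.hev a
  have h1 : Nat.card (st G a) = Nat.card (F × D) := by
    symm
    refine Nat.card_congr (Equiv.ofBijective (fun p => ⟨(p.1 : Perm Ω) * (p.2 : Perm Ω),
      (st G a).mul_mem (hF p.1.2) (mem_st2.1 p.2.2).1⟩) ⟨?_, ?_⟩)
    · rintro ⟨f, d⟩ ⟨f', d'⟩ h
      have h0 : (f : Perm Ω) * (d : Perm Ω) = (f' : Perm Ω) * (d' : Perm Ω) := congrArg Subtype.val h
      have h2 : (f : Perm Ω) (u a) = (f' : Perm Ω) (u a) := by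
        have := congrArg (fun g : Perm Ω => g (u a)) h0
        simp only [Perm.mul_apply, (mem_st2.1 d.2).2, (mem_st2.1 d'.2).2] at this
        exact this
      have hne2 : (f : Perm Ω) (u a) ≠ a := by
        intro h
        have h2 := (mem_st.1 (hF f.2)).2
        exact huf a ((f : Perm Ω).injective (h.trans h2.symm))
      have h3 : f = f' := Subtype.ext ((hFr' _ hne2).unique ⟨f.2, rfl⟩ ⟨f'.2, h2.symm⟩)
      subst h3
      have h4 : d = d' := Subtype.ext (mul_left_cancel h0)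
      rw [h4]
    · rintro ⟨g, hg⟩
      obtain ⟨f, hf, d, hd, rfl⟩ := hFD g hg
      exact ⟨(⟨f, hf⟩, ⟨d, hd⟩), rfl⟩
  rw [h1, Nat.card_prod]
  refine Odd.mul ?_ hDodd
  have := c.hev
  rw [← hFcard] at this
  rcases Nat.even_or_odd (Nat.card F) with h | h
  · exact absurd this (by rw [Nat.not_even_iff_odd]; exact h.add_one)
  · exact h

/-- P4 -/
theorem exists_FD {G A : Subgroup (Perm Ω)} (c : Cfg G A) (hn : Nat.card Ω ≠ 2) (a : Ω) :
    ∃ (u : Perm Ω) (F D : Subgroup (Perm Ω)), FD G A F D u a :=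
  exists_FD_aux (fun _ _ _ G A h2 hAG hA hA1 hev a hodd => L1 G A h2 hAG hA hA1 hev a hodd)
    (fun _ _ _ c _ _ hab => zgP c hab)
    (fun _ _ _ c u hu hu2 huf a hD X hX q hq => P3 c u hu hu2 huf a hD X hX q hq) c hn a

end Cfsg.Agent.Lib.AB68
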