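import Cfsg.Agent.Lib.AB68

/-! S3252, piece P5 (helper30): double counting of involutions. -/

set_option autoImplicit false

namespace Cfsg.Agent.Lib.AB68

open Equiv

universe u
variable {Ω : Type u}

namespace P5h

theorem conj_mem {G : Subgroup (Perm Ω)} {h g : Perm Ω} (hh : h ∈ G) : h * g * h⁻¹ ∈ G ↔ g ∈ G := by
  constructor
  · intro h1
    have h2 := G.mul_mem (G.mul_mem (G.inv_mem hh) h1) hh
    have h3 : h⁻¹ * (h * g * h⁻¹) * h = g := by group
    rwa [h3] at h2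
  · intro h1
    exact G.mul_mem (G.mul_mem hh h1) (G.inv_mem hh)

theorem conj_sq {h g : Perm Ω} : (h * g * h⁻¹) * (h * g * h⁻¹) = 1 ↔ g * g = 1 := by
  have h1 : (h * g * h⁻¹) * (h * g * h⁻¹) = h * (g * g) * h⁻¹ := by group
  rw [h1, conj_eq_one_iff]

theorem conj_ap {h g : Perm Ω} {a x b y : Ω} (ha : h a = x) (hb : h b = y) :
    (h * g * h⁻¹) x = y ↔ g a = b := by
  rw [Perm.mul_apply, Perm.mul_apply]
  have h1 : h⁻¹ x = a := by rw [Perm.inv_eq_iff_eq]; exact ha.symm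
  rw [h1, ← hb]
  exact h.injective.eq_iff

theorem conj_fix {h g : Perm Ω} : (∃ x, (h * g * h⁻¹) x = x) ↔ ∃ x, g x = x := by
  constructor
  · rintro ⟨x, hx⟩
    refine ⟨h⁻¹ x, ?_⟩
    have h1 : h (h⁻¹ x) = x := by simp
    exact (conj_ap h1 h1).1 hx
  · rintro ⟨x, hx⟩
    exact ⟨h x, (conj_ap rfl rfl).2 hx⟩

theorem card1 (G : Subgroup (Perm Ω)) {h : Perm Ω} (hh : h ∈ G) {a x : Ω} (ha : h a = x) :
    Nat.card {g : Perm Ω // g ∈ G ∧ g * g = 1 ∧ g ≠ 1 ∧ g x = x} =
      Nat.card {g : Perm Ω // g ∈ G ∧ g * g = 1 ∧ g ≠ 1 ∧ g a = a} := by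
  symm
  refine Nat.card_congr (Equiv.subtypeEquiv (MulAut.conj h).toEquiv (fun g => ?_))
  change _ ↔ h * g * h⁻¹ ∈ G ∧ (h * g * h⁻¹) * (h * g * h⁻¹) = 1 ∧ h * g * h⁻¹ ≠ 1 ∧ (h * g * h⁻¹) x = x
  have h1 : h * g * h⁻¹ ≠ 1 ↔ g ≠ 1 := not_iff_not.2 conj_eq_one_iff
  rw [conj_mem hh, conj_sq, conj_ap ha ha, h1]

theorem card2 (G : Subgroup (Perm Ω)) {h : Perm Ω} (hh : h ∈ G) {a b x y : Ω} (ha : h a = x) (hb : h b = y) :
    Nat.card {g : Perm Ω // g ∈ G ∧ g * g = 1 ∧ (∃ x, g x = x) ∧ g x = y} =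
      Nat.card {g : Perm Ω // g ∈ G ∧ g * g = 1 ∧ (∃ x, g x = x) ∧ g a = b} := by
  symm
  refine Nat.card_congr (Equiv.subtypeEquiv (MulAut.conj h).toEquiv (fun g => ?_))
  change _ ↔ h * g * h⁻¹ ∈ G ∧ (h * g * h⁻¹) * (h * g * h⁻¹) = 1 ∧ (∃ x, (h * g * h⁻¹) x = x) ∧
    (h * g * h⁻¹) x = y
  rw [conj_mem hh, conj_sq, conj_fix, conj_ap ha hb]

end P5h

open P5h Finset in
theorem count5 [Finite Ω] (G : Subgroup (Perm Ω)) (h2 : M2 G) (a b : Ω) (hab : a ≠ b) (m r : ℕ)
    (hm : ∀ g ∈ G, g * g = 1 → g ≠ 1 → (∃ x, g x = x) → Nat.card {x : Ω // g x = x} = m)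
    (hr : Nat.card {g : Perm Ω // g ∈ G ∧ g * g = 1 ∧ g ≠ 1 ∧ g a = a} = r)
    (hrm : r * (m - 1) = Nat.card Ω - 1) (hm1 : 2 ≤ m) :
    Nat.card Ω = m + m * (m - 1) * Nat.card {g : Perm Ω // g ∈ G ∧ g * g = 1 ∧ (∃ x, g x = x) ∧ g a = b} := by
  classical
  have := Fintype.ofFinite Ω
  set j := Nat.card {g : Perm Ω // g ∈ G ∧ g * g = 1 ∧ (∃ x, g x = x) ∧ g a = b} with hj
  set n := Nat.card Ω with hn
  have hn' : Fintype.card Ω = n := Nat.card_eq_fintype_card.symm
  have hn2 : 2 ≤ n := by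
    rw [← hn']
    exact Fintype.one_lt_card_iff.2 ⟨a, b, hab⟩
  let T : Finset (Perm Ω) := univ.filter (fun g => g ∈ G ∧ g * g = 1 ∧ g ≠ 1 ∧ ∃ x, g x = x)
  have hT : ∀ g, g ∈ T ↔ g ∈ G ∧ g * g = 1 ∧ g ≠ 1 ∧ ∃ x, g x = x := fun g => by simp [T]
  -- first count
  have c1 : T.card * m = n * r := by
    have h1 := Finset.sum_card_bipartiteAbove_eq_sum_card_bipartiteBelow (s := T) (t := (univ : Finset Ω))
      (fun g x => g x = x)
    have h3 : ∀ g ∈ T, (Finset.bipartiteAbove (fun (g : Perm Ω) x => g x = x) (univ : Finset Ω) g).card = m := by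
      intro g hg
      obtain ⟨g1, g2, g3, g4⟩ := (hT g).1 hg
      rw [← hm g g1 g2 g3 g4, Nat.card_eq_fintype_card, Fintype.card_subtype]
      rfl
    have h4 : ∀ x ∈ (univ : Finset Ω), (Finset.bipartiteBelow (fun (g : Perm Ω) x => g x = x) T x).card = r := by
      intro x _
      obtain ⟨y, hy⟩ : ∃ y, x ≠ y := by
        by_cases hx : x = a
        · exact ⟨b, hx ▸ hab⟩
        · exact ⟨a, hx⟩
      obtain ⟨h, hh, ha, -⟩ := h2 a b x y hab hy
      rw [← hr, ← card1 G hh ha, Nat.card_eq_fintype_card, Fintype.card_subtype]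
      congr 1
      ext g
      simp only [Finset.mem_bipartiteBelow, hT, mem_filter, mem_univ, true_and]
      constructor
      · rintro ⟨⟨g1, g2, g3, -⟩, g5⟩; exact ⟨g1, g2, g3, g5⟩
      · rintro ⟨g1, g2, g3, g5⟩; exact ⟨⟨g1, g2, g3, x, g5⟩, g5⟩
    rw [Finset.sum_congr rfl h3, Finset.sum_congr rfl h4, Finset.sum_const, Finset.sum_const, smul_eq_mul,
      smul_eq_mul, card_univ, hn'] at h1
    exact h1
  -- second count
  have c2 : T.card * (n - m) = (n * n - n) * j := by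
    have h1 := Finset.sum_card_bipartiteAbove_eq_sum_card_bipartiteBelow (s := T) (t := (univ : Finset Ω).offDiag)
      (fun g p => g p.1 = p.2)
    have h3 : ∀ g ∈ T, (Finset.bipartiteAbove (fun (g : Perm Ω) (p : Ω × Ω) => g p.1 = p.2)
        (univ : Finset Ω).offDiag g).card = n - m := by
      intro g hg
      obtain ⟨g1, g2, g3, g4⟩ := (hT g).1 hg
      have h5 : (univ.filter (fun x : Ω => ¬ g x = x)).card = n - m := by
        have h6 := Finset.card_filter_add_card_filter_not (s := (univ : Finset Ω)) (fun x => g x = x)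
        have h7 : (univ.filter (fun x : Ω => g x = x)).card = m := by
          rw [← hm g g1 g2 g3 g4, Nat.card_eq_fintype_card, Fintype.card_subtype]
        rw [h7, card_univ, hn'] at h6
        omega
      rw [← h5]
      symm
      refine Finset.card_bij (fun x _ => (x, g x)) ?_ ?_ ?_
      · intro x hx
        simp only [mem_filter, mem_univ, true_and] at hx
        simp only [Finset.mem_bipartiteAbove, mem_offDiag, mem_univ, true_and, and_true]
        exact fun h => hx h.symm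
      · intro x _ y _ hxy
        exact congrArg Prod.fst hxy
      · rintro ⟨x, y⟩ hp
        simp only [Finset.mem_bipartiteAbove, mem_offDiag, mem_univ, true_and] at hp
        refine ⟨x, ?_, ?_⟩
        · simp only [mem_filter, mem_univ, true_and]
          rw [hp.2]; exact fun h => hp.1 h.symm
        · rw [hp.2]
    have h4 : ∀ p ∈ (univ : Finset Ω).offDiag, (Finset.bipartiteBelow (fun (g : Perm Ω) (p : Ω × Ω) => g p.1 = p.2)
        T p).card = j := by
      rintro ⟨x, y⟩ hp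
      simp only [mem_offDiag, mem_univ, true_and] at hp
      obtain ⟨h, hh, ha, hb⟩ := h2 a b x y hab hp
      rw [hj, ← card2 G hh ha hb, Nat.card_eq_fintype_card, Fintype.card_subtype]
      congr 1
      ext g
      simp only [Finset.mem_bipartiteBelow, hT, mem_filter, mem_univ, true_and]
      constructor
      · rintro ⟨⟨g1, g2, -, g4⟩, g5⟩; exact ⟨g1, g2, g4, g5⟩
      · rintro ⟨g1, g2, g4, g5⟩
        refine ⟨⟨g1, g2, ?_, g4⟩, g5⟩
        rintro rfl
        exact hp g5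
    rw [Finset.sum_congr rfl h3, Finset.sum_congr rfl h4, Finset.sum_const, Finset.sum_const, smul_eq_mul,
      smul_eq_mul, offDiag_card, card_univ, hn'] at h1
    exact h1
  -- m ≤ n
  have hr0 : 0 < r := by
    rcases Nat.eq_zero_or_pos r with h | h
    · rw [h, zero_mul] at hrm; omega
    · exact h
  have hT0 : 0 < T.card := by
    rcases Nat.eq_zero_or_pos T.card with h | h
    · rw [h, zero_mul] at c1
      have : 0 < n * r := Nat.mul_pos (by omega) hr0
      omega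
    · exact h
  have hmn : m ≤ n := by
    obtain ⟨g, hg⟩ := Finset.card_pos.1 hT0
    obtain ⟨g1, g2, g3, g4⟩ := (hT g).1 hg
    rw [← hm g g1 g2 g3 g4, hn]
    exact Nat.card_le_card_of_injective _ Subtype.val_injective
  obtain ⟨k, hk⟩ := Nat.exists_eq_add_of_le hmn
  obtain ⟨l, hl⟩ := Nat.exists_eq_add_of_le hm1
  have e1 : n - m = k := by omega
  have e2 : m - 1 = l + 1 := by omega
  have e3 : n * n - n = n * (n - 1) := by rw [Nat.mul_sub, mul_one]
  rw [e1, e3, ← hrm, e2] at c2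
  rw [e2]
  -- T*m = n*r , T*k = n*(r*(l+1))*j
  have h5 : (n * r) * k = (n * r) * ((l + 1) * j * m) := by
    calc (n * r) * k = T.card * k * m := by rw [← c1]; ring
      _ = n * (r * (l + 1)) * j * m := by rw [c2]
      _ = (n * r) * ((l + 1) * j * m) := by ring
  have h6 := Nat.eq_of_mul_eq_mul_left (Nat.mul_pos (by omega) hr0) h5
  rw [hk, h6]; ring

end Cfsg.Agent.Lib.AB68
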