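import Mathlib
import Cfsg.Agent.Lib.AB68

/-! Piece P5b of S3252 (helper75 for helper68): involutions in the point stabilizer. -/

set_option autoImplicit false
set_option linter.all false

namespace Cfsg.Agent.Lib.AB68

open Equiv

universe u
variable {Ω : Type u}

theorem p5b_unique {P : Type*} [Group P] [Finite P] {D : Subgroup P} (hD : IsCyclic D) {t d : P} (ht : t ∈ D) (hd : d ∈ D)
    (ht2 : t * t = 1) (ht1 : t ≠ 1) (hd2 : d * d = 1) (hd1 : d ≠ 1) : d = t := by
  classical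
  by_contra hne
  have := Fintype.ofFinite D
  have h1 := IsCyclic.card_pow_eq_one_le (α := D) (n := 2) (by norm_num)
  have h2 : ({(1 : D), ⟨t, ht⟩, ⟨d, hd⟩} : Finset D) ⊆ Finset.univ.filter (fun x : D => x ^ 2 = 1) := by
    intro x hx
    simp only [Finset.mem_insert, Finset.mem_singleton] at hx
    rw [Finset.mem_filter]
    refine ⟨Finset.mem_univ _, ?_⟩
    rcases hx with rfl | rfl | rfl
    · simp
    · rw [pow_two]; exact Subtype.ext ht2
    · rw [pow_two]; exact Subtype.ext hd2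
  have h3 := Finset.card_le_card h2
  have h4 : ({(1 : D), ⟨t, ht⟩, ⟨d, hd⟩} : Finset D).card = 3 := by
    rw [Finset.card_insert_of_notMem, Finset.card_insert_of_notMem, Finset.card_singleton]
    · rw [Finset.mem_singleton]
      intro h
      exact hne (congrArg Subtype.val h).symm
    · rw [Finset.mem_insert, Finset.mem_singleton]
      rintro (h | h)
      · exact ht1 (congrArg Subtype.val h).symm
      · exact hd1 (congrArg Subtype.val h).symm
  omega

theorem p5b_aux {P : Type*} [Group P] {d k : P} (h : d * k * d⁻¹ = k⁻¹) : d * k⁻¹ = k * d := by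
  calc d * k⁻¹ = (d * k * d⁻¹)⁻¹ * d := by group
    _ = k * d := by rw [h, inv_inv]

theorem p5b_card {X : Type*} [Finite X] (a : X) : Nat.card {y : X // y ≠ a} + 1 = Nat.card X := by
  classical
  have := Fintype.ofFinite X
  rw [Nat.card_eq_fintype_card, Nat.card_eq_fintype_card]
  have h := Fintype.card_subtype_compl (fun y : X => y = a)
  rw [Fintype.card_subtype_eq] at h
  have hpos : 0 < Fintype.card X := Fintype.card_pos_iff.2 ⟨a⟩
  have h' : Fintype.card {y : X // y ≠ a} = Fintype.card {y : X // ¬ y = a} := by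
    apply Fintype.card_congr
    exact Equiv.refl _
  omega

theorem p5b_fix (w t : Perm Ω) : Nat.card {x : Ω // (w * t * w⁻¹) x = x} = Nat.card {x : Ω // t x = x} := by
  refine Nat.card_congr ?_
  have e1 : ∀ x : Ω, w⁻¹ (w x) = x := fun x => by rw [← Perm.mul_apply, inv_mul_cancel]; rfl
  have e2 : ∀ x : Ω, w (w⁻¹ x) = x := fun x => by rw [← Perm.mul_apply, mul_inv_cancel]; rfl
  refine ⟨fun x => ⟨w⁻¹ x, ?_⟩, fun x => ⟨w x, ?_⟩, fun x => Subtype.ext (e2 _), fun x => Subtype.ext (e1 _)⟩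
  · have h1 := x.2
    rw [Perm.mul_apply, Perm.mul_apply] at h1
    apply w.injective
    rw [h1, e2]
  · have h1 := x.2
    rw [Perm.mul_apply, Perm.mul_apply, e1, h1]

/-- P5b -/
theorem invol5 {G A F D : Subgroup (Perm Ω)} {u : Perm Ω} {a : Ω} (h : FD G A F D u a) :
    ∃ m r : ℕ, 2 ≤ m ∧ m < Nat.card Ω ∧
      (∀ g ∈ G, g * g = 1 → g ≠ 1 → (∃ x, g x = x) → Nat.card {x : Ω // g x = x} = m) ∧
      Nat.card {g : Perm Ω // g ∈ G ∧ g * g = 1 ∧ g ≠ 1 ∧ g a = a} = r ∧ r * (m - 1) = Nat.card Ω - 1 := by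
  classical
  have hfin : Finite Ω := h.c.hfin
  have h2f : Fact (Nat.Prime 2) := ⟨Nat.prime_two⟩
  obtain ⟨t0, ht0⟩ := exists_prime_orderOf_dvd_card' (G := D) 2 h.hDe.two_dvd
  obtain ⟨t, htD⟩ := t0
  have ht2 : t * t = 1 := by
    have := pow_orderOf_eq_one (⟨t, htD⟩ : D)
    rw [ht0, pow_two] at this
    exact congrArg Subtype.val this
  have ht1 : t ≠ 1 := by
    rintro rfl
    have : (⟨1, htD⟩ : D) = 1 := rfl
    rw [this, orderOf_one] at ht0
    exact absurd ht0 (by norm_num)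
  have htinv : t⁻¹ = t := inv_eq_of_mul_eq_one_right ht2
  have hDst : ∀ d ∈ D, d ∈ st G a := fun d hd => by
    rw [h.hD] at hd; exact (mem_st2.1 hd).1
  have hDua : ∀ d ∈ D, d (u a) = u a := fun d hd => by
    rw [h.hD] at hd; exact (mem_st2.1 hd).2
  have hFne : ∀ f ∈ F, f (u a) ≠ a := by
    intro f hf h1
    have h2 := (mem_st.1 (h.hF hf)).2
    exact h.huf a (f.injective (h1.trans h2.symm))
  have hFuniq : ∀ f ∈ F, ∀ f' ∈ F, f (u a) = f' (u a) → f = f' := fun f hf f' hf' h1 =>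
    (h.hFr _ (hFne f hf)).unique ⟨hf, rfl⟩ ⟨hf', h1.symm⟩
  have hFD1 : ∀ x ∈ F, x ∈ D → x = 1 := fun x hx hxD =>
    hFuniq x hx 1 F.one_mem (by rw [hDua x hxD]; rfl)
  have hFodd : Odd (Nat.card F) := by
    have := h.c.hev
    rw [← h.hFcard] at this
    rcases Nat.even_or_odd (Nat.card F) with h | h
    · exact absurd this (by rw [Nat.not_even_iff_odd]; exact h.add_one)
    · exact h
  have htst := hDst t htD
  -- involutions fixing `a` are conjugate to `t` under `F`
  have hconj : ∀ s ∈ G, s * s = 1 → s ≠ 1 → s a = a → ∃ k ∈ F, s = k * t * k⁻¹ := by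
    intro s hs hs2 hs1 hsa
    obtain ⟨f, hf, d, hd, rfl⟩ := h.hFD s ⟨hs, hsa⟩
    have h1 : f * (d * f * d⁻¹) ∈ F := F.mul_mem hf (h.hFn d (hDst d hd) f hf)
    have h2 : f * (d * f * d⁻¹) * (d * d) = 1 := by
      rw [← hs2]; group
    have hdd : d * d = 1 := by
      apply hFD1 _ _ (D.mul_mem hd hd)
      have : d * d = (f * (d * f * d⁻¹))⁻¹ := (inv_eq_of_mul_eq_one_right h2).symm
      rw [this]
      exact F.inv_mem h1
    have hf1 : f * (d * f * d⁻¹) = 1 := by rw [hdd, mul_one] at h2; exact h2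
    have hpow : ∀ x ∈ F, x * x = 1 → x = 1 := by
      intro x hx hxx
      have h3 : orderOf (⟨x, hx⟩ : F) ∣ 2 := orderOf_dvd_of_pow_eq_one (by rw [pow_two]; exact Subtype.ext hxx)
      have h4 : orderOf (⟨x, hx⟩ : F) ∣ Nat.card F := orderOf_dvd_natCard _
      have h5 : orderOf (⟨x, hx⟩ : F) = 1 :=
        Nat.dvd_one.1 ((Nat.coprime_two_left.2 hFodd) ▸ Nat.dvd_gcd h3 h4)
      exact congrArg Subtype.val (orderOf_eq_one_iff.1 h5)
    by_cases hd1 : d = 1
    · subst hd1
      exfalso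
      apply hs1
      rw [mul_one]
      apply hpow f hf
      simpa using hf1
    · have hdt : d = t := p5b_unique h.hDc htD hd ht2 ht1 hdd hd1
      subst hdt
      obtain ⟨j, hj⟩ := hFodd
      have hfc : f ^ (2 * j + 1) = 1 := by
        rw [← hj]
        have := pow_card_eq_one' (x := (⟨f, hf⟩ : F))
        exact congrArg Subtype.val this
      refine ⟨f ^ (j + 1), F.pow_mem hf _, ?_⟩
      have h3 : d * f * d⁻¹ = f⁻¹ := (inv_eq_of_mul_eq_one_right hf1).symm
      have h4 : d * f ^ (j + 1) * d⁻¹ = (f ^ (j + 1))⁻¹ := by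
        rw [← conj_pow, h3, inv_pow]
      have h5 : f ^ (j + 1) * f ^ (j + 1) = f := by
        rw [← pow_add, show j + 1 + (j + 1) = 2 * j + 1 + 1 by ring, pow_succ, hfc, one_mul]
      have h6 : d * (f ^ (j + 1))⁻¹ = f ^ (j + 1) * d := p5b_aux h4
      rw [mul_assoc, h6, ← mul_assoc, h5]
  -- the centralizer
  let C : Subgroup F := (Subgroup.centralizer ({t} : Set (Perm Ω))).subgroupOf F
  have hC : ∀ f : F, f ∈ C ↔ (f : Perm Ω) * t = t * f := by
    intro f
    rw [Subgroup.mem_subgroupOf, Subgroup.mem_centralizer_singleton_iff]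
  have hr : Nat.card {g : Perm Ω // g ∈ G ∧ g * g = 1 ∧ g ≠ 1 ∧ g a = a} = Nat.card (F ⧸ C) := by
    let φ : F → {g : Perm Ω // g ∈ G ∧ g * g = 1 ∧ g ≠ 1 ∧ g a = a} := fun k =>
      ⟨k * t * (k : Perm Ω)⁻¹, G.mul_mem (G.mul_mem (mem_st.1 (h.hF k.2)).1 (mem_st.1 htst).1) (G.inv_mem (mem_st.1 (h.hF k.2)).1),
        by
          have : (k : Perm Ω) * t * (k : Perm Ω)⁻¹ * ((k : Perm Ω) * t * (k : Perm Ω)⁻¹) = k * (t * t) * (k : Perm Ω)⁻¹ := by group
          rw [this, ht2, mul_one, mul_inv_cancel],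
        by
          intro h1
          apply ht1
          have : t = (k : Perm Ω)⁻¹ * ((k : Perm Ω) * t * (k : Perm Ω)⁻¹) * k := by group
          rw [this, h1]; group,
        (mem_st.1 ((st G a).mul_mem ((st G a).mul_mem (h.hF k.2) htst) ((st G a).inv_mem (h.hF k.2)))).2⟩
    have hφ : ∀ k k' : F, φ k = φ k' ↔ k⁻¹ * k' ∈ C := by
      intro k k'
      rw [hC]
      constructor
      · intro h1
        have h2 : (k : Perm Ω) * t * (k : Perm Ω)⁻¹ = k' * t * (k' : Perm Ω)⁻¹ := congrArg Subtype.val h1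
        change (k : Perm Ω)⁻¹ * k' * t = t * ((k : Perm Ω)⁻¹ * k')
        calc (k : Perm Ω)⁻¹ * k' * t = (k : Perm Ω)⁻¹ * (k' * t * (k' : Perm Ω)⁻¹) * k' := by group
          _ = (k : Perm Ω)⁻¹ * (k * t * (k : Perm Ω)⁻¹) * k' := by rw [h2]
          _ = t * ((k : Perm Ω)⁻¹ * k') := by group
      · intro h1
        change (k : Perm Ω)⁻¹ * k' * t = t * ((k : Perm Ω)⁻¹ * k') at h1
        apply Subtype.ext
        change (k : Perm Ω) * t * (k : Perm Ω)⁻¹ = k' * t * (k' : Perm Ω)⁻¹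
        calc (k : Perm Ω) * t * (k : Perm Ω)⁻¹ = k * (t * ((k : Perm Ω)⁻¹ * k')) * (k' : Perm Ω)⁻¹ := by group
          _ = k * ((k : Perm Ω)⁻¹ * k' * t) * (k' : Perm Ω)⁻¹ := by rw [h1]
          _ = k' * t * (k' : Perm Ω)⁻¹ := by group
    symm
    refine Nat.card_congr (Equiv.ofBijective (Quotient.lift (s := QuotientGroup.leftRel C) φ ?_) ⟨?_, ?_⟩)
    · intro k k' hk
      exact (hφ k k').2 (QuotientGroup.leftRel_apply.1 hk)
    · intro x y
      induction x using Quotient.inductionOn with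
      | h x =>
        induction y using Quotient.inductionOn with
        | h y =>
          intro hxy
          apply Quotient.sound
          exact QuotientGroup.leftRel_apply.2 ((hφ x y).1 hxy)
    · rintro ⟨g, hg, hg2, hg1, hga⟩
      obtain ⟨k, hk, rfl⟩ := hconj g hg hg2 hg1 hga
      exact ⟨Quotient.mk _ ⟨k, hk⟩, rfl⟩
  -- fixed points of `t`
  have hfix : Nat.card {x : Ω // t x = x} = Nat.card C + 1 := by
    have h1 : Nat.card C = Nat.card {x : {x : Ω // t x = x} // x ≠ ⟨a, (mem_st.1 htst).2⟩} := by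
      have hkey : ∀ f ∈ F, (t (f (u a)) = f (u a) ↔ f * t = t * f) := by
        intro f hf
        have h2 : t * f * t⁻¹ ∈ F := h.hFn t htst f hf
        have h3 : (t * f * t⁻¹) (u a) = t (f (u a)) := by
          rw [htinv, Perm.mul_apply, Perm.mul_apply, hDua t htD]
        constructor
        · intro h4
          exact (mul_inv_eq_iff_eq_mul.1 (hFuniq _ h2 f hf (h3.trans h4))).symm
        · intro h4
          rw [← Perm.mul_apply, ← h4, Perm.mul_apply, hDua t htD]
      refine Nat.card_congr (Equiv.ofBijective (fun f => ⟨⟨((f : F) : Perm Ω) (u a),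
        (hkey _ (f : F).2).2 ((hC _).1 f.2)⟩, fun h4 => hFne _ (f : F).2 (congrArg Subtype.val h4)⟩) ⟨?_, ?_⟩)
      · intro f f' hff
        have h4 : ((f : F) : Perm Ω) (u a) = ((f' : F) : Perm Ω) (u a) :=
          congrArg (fun y => ((y : {x : Ω // t x = x}) : Ω)) (congrArg Subtype.val hff)
        exact Subtype.ext (Subtype.ext (hFuniq _ (f : F).2 _ (f' : F).2 h4))
      · rintro ⟨⟨x, hx⟩, hxa⟩
        have hxa' : x ≠ a := fun h4 => hxa (Subtype.ext h4)
        obtain ⟨f, ⟨hf, hfx⟩, -⟩ := h.hFr x hxa'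
        refine ⟨⟨⟨f, hf⟩, (hC _).2 ((hkey f hf).1 (by rw [hfx]; exact hx))⟩, ?_⟩
        apply Subtype.ext
        apply Subtype.ext
        exact hfx
    rw [h1, p5b_card]
  have hCF : Nat.card (F ⧸ C) * Nat.card C = Nat.card F := (Subgroup.card_eq_card_quotient_mul_card_subgroup C).symm
  have hCpos : 0 < Nat.card C := Nat.card_pos
  refine ⟨Nat.card {x : Ω // t x = x}, _, by omega, ?_, ?_, rfl, ?_⟩
  · -- `t` is not the identity
    obtain ⟨x, hx⟩ : ∃ x, t x ≠ x := by
      by_contra hcon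
      push Not at hcon
      exact ht1 (Perm.ext hcon)
    have h1 := p5b_card x
    have h2 : Nat.card {y : Ω // t y = y} ≤ Nat.card {y : Ω // y ≠ x} := by
      apply Nat.card_le_card_of_injective (fun y : {y : Ω // t y = y} => (⟨y, fun h3 => hx (h3 ▸ y.2)⟩ : {y : Ω // y ≠ x}))
      intro y y' hyy
      exact Subtype.ext (congrArg (fun z : {y : Ω // y ≠ x} => (z : Ω)) hyy)
    omega
  · intro g hg hg2 hg1 hx
    obtain ⟨x, hx⟩ := hx
    obtain ⟨e, he, hex⟩ := h.c.hA1 a x
    have heG := h.c.hAG he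
    obtain ⟨k, hk, hk2⟩ := hconj (e⁻¹ * g * e) (G.mul_mem (G.mul_mem (G.inv_mem heG) hg) heG)
      (by
        have : e⁻¹ * g * e * (e⁻¹ * g * e) = e⁻¹ * (g * g) * e := by group
        rw [this, hg2]; group)
      (by
        intro h1
        apply hg1
        have : g = e * (e⁻¹ * g * e) * e⁻¹ := by group
        rw [this, h1]; group)
      (by rw [Perm.mul_apply, Perm.mul_apply, hex, hx, ← hex]; exact Perm.inv_eq_iff_eq.2 rfl)
    have hgt : g = (e * k) * t * (e * k)⁻¹ := by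
      have : g = e * (e⁻¹ * g * e) * e⁻¹ := by group
      rw [this, hk2]; group
    rw [hgt]
    exact p5b_fix (e * k) t
  · have h1 := h.hFcard
    rw [hr, hfix, Nat.add_sub_cancel, hCF]
    omega

end Cfsg.Agent.Lib.AB68
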