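import Mathlib
import Cfsg.Agent.Lib.AB68

/-! The piece P6 of S3252 (helper57). -/

set_option autoImplicit false
set_option linter.all false

namespace Cfsg.Agent.Lib.AB68

open Equiv

theorem class6 {P : Type*} [Group P] [Finite P] (u : P) (hu : u * u = 1) (D : Subgroup P) (hD : IsCyclic D)
    (hn : ∀ d ∈ D, u * d * u ∈ D) (S : Set P) (hS : ∀ g ∈ S, ∀ d ∈ D, d * g * d⁻¹ ∈ S) (huS : u ∉ S)
    (d₀ : P) (hd₀ : d₀ ∈ D) (hi : u * d₀ * u = d₀⁻¹) (h0 : u * d₀ ∈ S) :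
    Nat.card {d : P // d ∈ D ∧ u * d * u = d⁻¹} = 2 * Nat.card {d : P // ∃ e ∈ D, d = e⁻¹ * (u * e * u)} ∧
    Nat.card {d : P // d ∈ D ∧ u * d * u = d⁻¹ ∧ u * d ∈ S} =
      Nat.card {d : P // ∃ e ∈ D, d = e⁻¹ * (u * e * u)} ∧
    ∀ d ∈ D, u * d * u = d⁻¹ → (u * d ∈ S ↔ ¬ ∃ e ∈ D, d = e⁻¹ * (u * e * u)) := by
  classical
  have hui : u⁻¹ = u := inv_eq_of_mul_eq_one_left hu
  have hc : ∀ a ∈ D, ∀ b ∈ D, a * b = b * a := by
    intro a ha b hb
    obtain ⟨g, hg⟩ := hD.exists_generator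
    obtain ⟨i, hi⟩ := Subgroup.mem_zpowers_iff.1 (hg ⟨a, ha⟩)
    obtain ⟨j, hj⟩ := Subgroup.mem_zpowers_iff.1 (hg ⟨b, hb⟩)
    have h1 : (⟨a, ha⟩ : D) * ⟨b, hb⟩ = ⟨b, hb⟩ * ⟨a, ha⟩ := by
      rw [← hi, ← hj, ← zpow_add, ← zpow_add, add_comm]
    exact congrArg Subtype.val h1
  have hum : ∀ a b : P, u * (a * b) * u = (u * a * u) * (u * b * u) := by
    intro a b
    calc u * (a * b) * u = u * a * 1 * b * u := by group
      _ = u * a * (u * u) * b * u := by rw [hu]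
      _ = _ := by group
  have huu : ∀ a : P, u * (u * a * u) * u = a := by
    intro a
    calc u * (u * a * u) * u = (u * u) * a * (u * u) := by group
      _ = a := by rw [hu]; group
  have huinv : ∀ a : P, u * a⁻¹ * u = (u * a * u)⁻¹ := by
    intro a
    rw [mul_inv_rev, mul_inv_rev, hui]; group
  -- the maps
  let φ : D →* D := MonoidHom.mk' (fun e => ⟨(e : P)⁻¹ * (u * e * u), D.mul_mem (D.inv_mem e.2) (hn _ e.2)⟩) (by
    rintro ⟨a, ha⟩ ⟨b, hb⟩
    apply Subtype.ext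
    show (a * b)⁻¹ * (u * (a * b) * u) = (a⁻¹ * (u * a * u)) * (b⁻¹ * (u * b * u))
    rw [hum, mul_inv_rev]
    have e1 := hc _ (D.inv_mem hb) _ (D.mul_mem (D.inv_mem ha) (hn a ha))
    calc b⁻¹ * a⁻¹ * ((u * a * u) * (u * b * u)) = (b⁻¹ * (a⁻¹ * (u * a * u))) * (u * b * u) := by group
      _ = ((a⁻¹ * (u * a * u)) * b⁻¹) * (u * b * u) := by rw [e1]
      _ = _ := by group)
  let ψ : D →* D := MonoidHom.mk' (fun e => ⟨(e : P) * (u * e * u), D.mul_mem e.2 (hn _ e.2)⟩) (by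
    rintro ⟨a, ha⟩ ⟨b, hb⟩
    apply Subtype.ext
    show (a * b) * (u * (a * b) * u) = (a * (u * a * u)) * (b * (u * b * u))
    rw [hum]
    have e1 := hc _ hb _ (hn a ha)
    calc a * b * ((u * a * u) * (u * b * u)) = a * (b * (u * a * u)) * (u * b * u) := by group
      _ = a * ((u * a * u) * b) * (u * b * u) := by rw [e1]
      _ = _ := by group)
  -- the subgroups
  let I : Subgroup P :=
    { carrier := {d | d ∈ D ∧ u * d * u = d⁻¹}
      one_mem' := ⟨D.one_mem, by rw [mul_one, hu, inv_one]⟩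
      mul_mem' := by
        rintro a b ⟨ha, ha2⟩ ⟨hb, hb2⟩
        refine ⟨D.mul_mem ha hb, ?_⟩
        rw [hum, ha2, hb2, ← mul_inv_rev, hc a ha b hb]
      inv_mem' := by
        rintro a ⟨ha, ha2⟩
        exact ⟨D.inv_mem ha, by rw [huinv, ha2]⟩ }
  let J : Subgroup P :=
    { carrier := {d | ∃ e ∈ D, d = e⁻¹ * (u * e * u)}
      one_mem' := ⟨1, D.one_mem, by rw [mul_one, hu]; group⟩
      mul_mem' := by
        rintro a b ⟨e, he, rfl⟩ ⟨f, hf, rfl⟩
        refine ⟨e * f, D.mul_mem he hf, ?_⟩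
        exact (congrArg Subtype.val (φ.map_mul ⟨e, he⟩ ⟨f, hf⟩)).symm
      inv_mem' := by
        rintro a ⟨e, he, rfl⟩
        refine ⟨e⁻¹, D.inv_mem he, ?_⟩
        exact (congrArg Subtype.val (φ.map_inv ⟨e, he⟩)).symm }
  have hJI : J ≤ I := by
    rintro _ ⟨e, he, rfl⟩
    refine ⟨D.mul_mem (D.inv_mem he) (hn e he), ?_⟩
    rw [hum, huinv, huu]
    group
  have hcI : Nat.card I = Nat.card ψ.ker := by
    refine Nat.card_congr ⟨fun d => ⟨⟨d.1, d.2.1⟩, ?_⟩, fun d => ⟨d.1.1, d.1.2, ?_⟩, fun _ => rfl, fun _ => rfl⟩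
    · apply Subtype.ext
      show d.1 * (u * d.1 * u) = 1
      rw [d.2.2, mul_inv_cancel]
    · have h1 : d.1.1 * (u * d.1.1 * u) = 1 := congrArg Subtype.val d.2
      exact (inv_eq_of_mul_eq_one_right h1).symm
  have hcJ : Nat.card J = Nat.card φ.range := by
    refine Nat.card_congr ⟨fun d => ⟨⟨d.1, ?_⟩, ?_⟩, fun d => ⟨d.1.1, ?_⟩, fun _ => rfl, fun _ => rfl⟩
    · exact (hJI d.2).1
    · obtain ⟨e, he, h1⟩ := d.2
      exact ⟨⟨e, he⟩, Subtype.ext h1.symm⟩
    · obtain ⟨⟨e, he⟩, h1⟩ := d.2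
      exact ⟨e, he, (congrArg Subtype.val h1).symm⟩
  have c1 : Nat.card ψ.ker * Nat.card ψ.range = Nat.card D := by
    rw [← Subgroup.index_ker, Subgroup.card_mul_index]
  have c2 : Nat.card φ.ker * Nat.card φ.range = Nat.card D := by
    rw [← Subgroup.index_ker, Subgroup.card_mul_index]
  have c3 : Nat.card φ.ker ≤ 2 * Nat.card ψ.range := by
    haveI : IsCyclic φ.ker := inferInstance
    let sq : φ.ker →* D := MonoidHom.mk' (fun e => e.1 * e.1) (by
      rintro ⟨⟨a, ha⟩, ha2⟩ ⟨⟨b, hb⟩, hb2⟩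
      apply Subtype.ext
      show (a * b) * (a * b) = (a * a) * (b * b)
      calc (a * b) * (a * b) = a * (b * a) * b := by group
        _ = a * (a * b) * b := by rw [hc b hb a ha]
        _ = _ := by group)
    have s1 : Nat.card sq.ker * Nat.card sq.range = Nat.card φ.ker := by
      rw [← Subgroup.index_ker, Subgroup.card_mul_index]
    have s2 : Nat.card sq.ker ≤ 2 := by
      haveI := Fintype.ofFinite φ.ker
      have h1 := IsCyclic.card_pow_eq_one_le (α := φ.ker) (n := 2) (by norm_num)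
      refine le_trans ?_ h1
      rw [← Fintype.card_coe, ← Nat.card_eq_fintype_card]
      apply Nat.card_le_card_of_injective (fun e : sq.ker => (⟨e.1, by
        have h2 : (e.1 : φ.ker).1 * e.1.1 = 1 := e.2
        rw [Finset.mem_filter]
        refine ⟨Finset.mem_univ _, ?_⟩
        rw [pow_two]
        exact Subtype.ext h2⟩ : {a : φ.ker // a ∈ Finset.univ.filter fun a : φ.ker => a ^ 2 = 1}))
      intro a b h
      exact Subtype.ext (congrArg (fun x : {a : φ.ker // a ∈ Finset.univ.filter fun a : φ.ker => a ^ 2 = 1} => x.1) h)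
    have s3 : sq.range ≤ ψ.range := by
      rintro _ ⟨⟨e, he⟩, rfl⟩
      refine ⟨e, ?_⟩
      apply Subtype.ext
      show e.1 * (u * e.1 * u) = e.1 * e.1
      have h1 : e.1⁻¹ * (u * e.1 * u) = 1 := congrArg Subtype.val he
      rw [(inv_mul_eq_one.1 h1).symm]
    have s4 := Subgroup.card_le_of_le s3
    calc Nat.card φ.ker = Nat.card sq.ker * Nat.card sq.range := s1.symm
      _ ≤ 2 * Nat.card ψ.range := Nat.mul_le_mul s2 s4
  have hIJ : Nat.card I ≤ 2 * Nat.card J := by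
    have h1 : 0 < Nat.card ψ.range := Nat.card_pos
    have h2 : Nat.card ψ.range * Nat.card I ≤ Nat.card ψ.range * (2 * Nat.card J) := by
      rw [hcI, hcJ]
      calc Nat.card ψ.range * Nat.card ψ.ker = Nat.card φ.ker * Nat.card φ.range := by rw [c2, ← c1, mul_comm]
        _ ≤ (2 * Nat.card ψ.range) * Nat.card φ.range := Nat.mul_le_mul_right _ c3
        _ = _ := by ring
    exact Nat.le_of_mul_le_mul_left h2 h1
  -- the conjugates
  have hconj : ∀ d ∈ D, ∀ e ∈ D, u * (d * (e⁻¹ * (u * e * u))) = e * (u * d) * e⁻¹ := by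
    intro d hd e he
    have e1 := hc _ (D.mul_mem hd (D.inv_mem he)) _ (hn e he)
    calc u * (d * (e⁻¹ * (u * e * u))) = u * ((d * e⁻¹) * (u * e * u)) := by group
      _ = u * ((u * e * u) * (d * e⁻¹)) := by rw [e1]
      _ = (u * u) * e * (u * d) * e⁻¹ := by group
      _ = _ := by rw [hu, one_mul]
  have hJS : ∀ d ∈ J, u * d ∉ S := by
    rintro _ ⟨e, he, rfl⟩ h
    apply huS
    have h1 := hconj 1 D.one_mem e he
    rw [one_mul, mul_one] at h1
    rw [h1] at h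
    have h2 := hS _ h e⁻¹ (D.inv_mem he)
    have h3 : e⁻¹ * (e * u * e⁻¹) * e⁻¹⁻¹ = u := by group
    rwa [h3] at h2
  have h0J : d₀ ∉ J := fun h => hJS d₀ h h0
  have h0I : d₀ ∈ I := ⟨hd₀, hi⟩
  have h0S : ∀ d ∈ J, u * (d₀ * d) ∈ S := by
    rintro _ ⟨e, he, rfl⟩
    rw [hconj d₀ hd₀ e he]
    exact hS _ h0 e he
  -- index two
  have hK : Nat.card (J.subgroupOf I) = Nat.card J := Nat.card_congr (Subgroup.subgroupOfEquivOfLe hJI).toEquiv
  have hidx : (J.subgroupOf I).index = 2 := by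
    have h1 := Subgroup.card_mul_index (J.subgroupOf I)
    rw [hK] at h1
    have h2 : 0 < Nat.card J := Nat.card_pos
    have h3 : (J.subgroupOf I).index ≤ 2 := by
      have h4 : Nat.card J * (J.subgroupOf I).index ≤ Nat.card J * 2 := by rw [h1]; omega
      exact Nat.le_of_mul_le_mul_left h4 h2
    have h4 : (J.subgroupOf I).index ≠ 0 := Subgroup.index_ne_zero_of_finite
    have h5 : (J.subgroupOf I).index ≠ 1 := by
      intro h6
      rw [Subgroup.index_eq_one] at h6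
      have h7 : (⟨d₀, h0I⟩ : I) ∈ J.subgroupOf I := by rw [h6]; exact Subgroup.mem_top _
      exact h0J (Subgroup.mem_subgroupOf.1 h7)
    omega
  have hdich : ∀ d ∈ I, d ∉ J → d₀⁻¹ * d ∈ J := by
    intro d hd hdJ
    have h1 := (Subgroup.mul_mem_iff_of_index_two hidx (a := (⟨d₀, h0I⟩ : I)⁻¹) (b := ⟨d, hd⟩)).2 (by
      constructor
      · intro h2
        exact absurd (Subgroup.mem_subgroupOf.1 (inv_mem_iff.1 h2)) h0J
      · intro h2
        exact absurd (Subgroup.mem_subgroupOf.1 h2) hdJ)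
    exact Subgroup.mem_subgroupOf.1 h1
  have h3 : ∀ d ∈ D, u * d * u = d⁻¹ → (u * d ∈ S ↔ ¬ ∃ e ∈ D, d = e⁻¹ * (u * e * u)) := by
    intro d hd hd2
    constructor
    · intro h1 h2
      exact hJS d h2 h1
    · intro h1
      have h2 := h0S _ (hdich d ⟨hd, hd2⟩ h1)
      rwa [mul_inv_cancel_left] at h2
  have h4 := Subgroup.card_mul_index (J.subgroupOf I)
  rw [hK, hidx] at h4
  refine ⟨?_, ?_, h3⟩
  · have : Nat.card I = 2 * Nat.card J := by omega
    exact this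
  · refine Nat.card_congr ⟨fun d => ⟨d₀⁻¹ * d.1, ?_⟩, fun j => ⟨d₀ * j.1, ?_, ?_, ?_⟩, fun d => ?_, fun j => ?_⟩
    · exact hdich d.1 ⟨d.2.1, d.2.2.1⟩ ((h3 d.1 d.2.1 d.2.2.1).1 d.2.2.2)
    · exact D.mul_mem hd₀ (hJI j.2).1
    · exact (I.mul_mem h0I (hJI j.2)).2
    · exact h0S j.1 j.2
    · exact Subtype.ext (mul_inv_cancel_left _ _)
    · exact Subtype.ext (inv_mul_cancel_left _ _)

end Cfsg.Agent.Lib.AB68
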