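import Cfsg.Agent.Lib.AB68

/-! Products of a cyclic group and a Z-group: piece P7. -/

set_option autoImplicit false
set_option linter.all false

namespace Cfsg.Agent.Lib.AB68

open Equiv

universe u

variable {Ω : Type u}

namespace P7H62

variable {G A F D : Subgroup (Perm Ω)} {u : Perm Ω} {a : Ω}

theorem mem_D (h : FD G A F D u a) {g : Perm Ω} : g ∈ D ↔ (g ∈ G ∧ g a = a) ∧ g (u a) = u a := by
  rw [h.hD]; exact mem_st2

theorem D_le_st (h : FD G A F D u a) : D ≤ st G a := by
  intro d hd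
  exact ((mem_D h).1 hd).1

theorem FD_inf (h : FD G A F D u a) {g : Perm Ω} (hF : g ∈ F) (hD : g ∈ D) : g = 1 := by
  obtain ⟨f, -, hf⟩ := h.hFr (u a) (h.huf a)
  have h1 := hf g ⟨hF, ((mem_D h).1 hD).2⟩
  have h2 := hf 1 ⟨F.one_mem, rfl⟩
  rw [h1, h2]

/-- the conjugation action of `D` on `F` -/
theorem card_D_le (h : FD G A F D u a) : Nat.card D ≤ Nat.totient (Nat.card F) := by
  have := h.c.hfin
  have hc := h.hFc
  let f : D →* MulAut F :=
    { toFun := fun d =>
        { toFun := fun x => ⟨d * x * (d : Perm Ω)⁻¹, h.hFn d (D_le_st h d.2) x x.2⟩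
          invFun := fun x => ⟨(d : Perm Ω)⁻¹ * x * d, by
            have := h.hFn (d : Perm Ω)⁻¹ (D_le_st h (D.inv_mem d.2)) x x.2
            rwa [inv_inv] at this⟩
          left_inv := fun x => by apply Subtype.ext; show _ = (x : Perm Ω); group
          right_inv := fun x => by apply Subtype.ext; show _ = (x : Perm Ω); group
          map_mul' := fun x y => by
            apply Subtype.ext
            show (d : Perm Ω) * (x * y) * (d : Perm Ω)⁻¹ = (d * x * (d : Perm Ω)⁻¹) * (d * y * (d : Perm Ω)⁻¹)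
            group }
      map_one' := by
        ext x
        show (1 * (x : Perm Ω) * 1⁻¹) _ = _
        simp
      map_mul' := fun d e => by
        apply MulEquiv.ext
        intro x
        apply Subtype.ext
        show (d * e : Perm Ω) * x * (d * e : Perm Ω)⁻¹ = d * (e * x * (e : Perm Ω)⁻¹) * (d : Perm Ω)⁻¹
        group }
  have hinj : Function.Injective f := by
    rw [injective_iff_map_eq_one]
    intro d hd
    have h1 : (d : Perm Ω) ∈ F := by
      apply h.hFC _ (D_le_st h d.2)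
      intro x hx
      have h2 : f d ⟨x, hx⟩ = ⟨x, hx⟩ := by rw [hd]; rfl
      have h3 : (d : Perm Ω) * x * (d : Perm Ω)⁻¹ = x := congrArg Subtype.val h2
      rwa [mul_inv_eq_iff_eq_mul] at h3
    exact Subtype.ext (FD_inf h h1 d.2)
  rw [← IsCyclic.card_mulAut]
  exact Nat.card_le_card_of_injective f hinj

end P7H62

open P7H62

/- P7 -/
theorem case7 {G A F D : Subgroup (Perm Ω)} {u : Perm Ω} {a : Ω} (h : FD G A F D u a)
    (hI : Nat.card {d : Perm Ω // d ∈ D ∧ u * d * u = d⁻¹} = Nat.card Ω - 2) :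
    ∃ p : ℕ, p.Prime ∧ p ≠ 2 ∧ Nat.card Ω = p + 1 ∧ Sh3 G ∧ Sw G := by
  classical
  have := h.c.hfin
  have hFp : 0 < Nat.card F := Nat.card_pos
  have hDp : 0 < Nat.card D := Nat.card_pos
  have hcard := h.hFcard
  have hDe := h.hDe
  have hDF := card_D_le h
  -- the inclusion of the inverted elements
  have hinc : Function.Injective (fun d : {d : Perm Ω // d ∈ D ∧ u * d * u = d⁻¹} => (⟨d.1, d.2.1⟩ : D)) := by
    intro x y hxy
    have hxy' : (⟨x.1, x.2.1⟩ : D) = ⟨y.1, y.2.1⟩ := hxy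
    exact Subtype.ext (congrArg (fun z : D => (z : Perm Ω)) hxy')
  have hID := Nat.card_le_card_of_injective _ hinc
  rw [hI] at hID
  have hF2 : 1 < Nat.card F := by
    by_contra hcon
    have h1 : Nat.card F = 1 := by omega
    rw [h1, Nat.totient_one] at hDF
    have : Nat.card D = 1 := by omega
    rw [this] at hDe
    exact absurd hDe (by decide)
  have hlt := Nat.totient_lt (Nat.card F) hF2
  have htot : (Nat.card F).totient = Nat.card F - 1 := by omega
  have hprime : (Nat.card F).Prime := (Nat.totient_eq_iff_prime hFp).1 htot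
  have hDcard : Nat.card D = Nat.card F - 1 := by omega
  have hF2' : Nat.card F ≠ 2 := by
    intro h1
    rw [h1] at hDcard
    rw [hDcard] at hDe
    exact absurd hDe (by decide)
  -- `u` inverts `D`
  have hinv : ∀ d ∈ D, u * d * u = d⁻¹ := by
    have hs : Function.Surjective (fun d : {d : Perm Ω // d ∈ D ∧ u * d * u = d⁻¹} => (⟨d.1, d.2.1⟩ : D)) := by
      apply ((Nat.bijective_iff_injective_and_card _).2 ⟨hinc, ?_⟩).2
      rw [hI]
      omega
    intro d hd
    obtain ⟨x, hx⟩ := hs ⟨d, hd⟩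
    have : x.1 = d := congrArg Subtype.val hx
    rw [← this]
    exact x.2.2
  -- fixed points of `D`
  have hfix : ∀ d ∈ D, d ≠ 1 → ∀ x, d x = x → x = a ∨ x = u a := by
    intro d hd hd1 x hx
    by_contra hcon
    push Not at hcon
    obtain ⟨f, ⟨hf, hfx⟩, hun⟩ := h.hFr x hcon.1
    have h1 : d * f * d⁻¹ ∈ F := h.hFn d (D_le_st h hd) f hf
    have h2 : (d * f * d⁻¹) (u a) = x := by
      have h3 : d⁻¹ (u a) = u a := by rw [Perm.inv_eq_iff_eq]; exact ((mem_D h).1 hd).2.symm
      rw [Perm.mul_apply, Perm.mul_apply, h3, hfx, hx]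
    have h3 : d * f * d⁻¹ = f := by rw [hun _ ⟨h1, h2⟩, hun f ⟨hf, hfx⟩]
    have hf1 : f ≠ 1 := by
      rintro rfl
      exact hcon.2 hfx.symm
    apply hd1
    apply FD_inf h _ hd
    apply h.hFC d (D_le_st h hd)
    intro y hy
    -- `F` is generated by `f`
    have hz : (⟨y, hy⟩ : F) ∈ Subgroup.zpowers (⟨f, hf⟩ : F) := by
      haveI : Fact (Nat.card F).Prime := ⟨hprime⟩
      exact mem_zpowers_of_prime_card (p := Nat.card F) rfl (fun hh => hf1 (congrArg Subtype.val hh))
    obtain ⟨k, hk⟩ := Subgroup.mem_zpowers_iff.1 hz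
    have hk' : f ^ k = y := congrArg Subtype.val hk
    have hcomm : Commute d f := by
      rw [commute_iff_eq]
      rwa [mul_inv_eq_iff_eq_mul] at h3
    rw [← hk']
    exact (hcomm.zpow_right k)
  have huaA : u ∈ G := h.c.hAG h.huA
  have huua : u (u a) = a := by
    have := congrArg (fun g : Perm Ω => g a) h.hu2
    simpa using this
  -- `D` is transitive on the other points
  have hΩ : Nat.card {x : Ω // x ≠ a ∧ x ≠ u a} = Nat.card D := by
    haveI := Fintype.ofFinite Ω
    have e1 : Nat.card {x : Ω // x ≠ a ∧ x ≠ u a} = (Finset.univ \ {a, u a} : Finset Ω).card := by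
      rw [Nat.card_eq_fintype_card, Fintype.card_subtype]
      congr 1
      ext x
      simp
    rw [e1, Finset.card_sdiff_of_subset (Finset.subset_univ _), Finset.card_univ, Finset.card_pair (h.huf a).symm,
      ← Nat.card_eq_fintype_card]
    omega
  have htr : ∀ x y, x ≠ a → x ≠ u a → y ≠ a → y ≠ u a → ∃ d ∈ D, d x = y := by
    intro x y hx1 hx2 hy1 hy2
    have hDs : ∀ d ∈ D, ∀ z, z ≠ a → d z ≠ a := by
      intro d hd z hz hc
      apply hz
      apply d.injective
      rw [hc]; exact ((mem_D h).1 hd).1.2.symm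
    have hDs' : ∀ d ∈ D, ∀ z, z ≠ u a → d z ≠ u a := by
      intro d hd z hz hc
      apply hz
      apply d.injective
      rw [hc]; exact ((mem_D h).1 hd).2.symm
    let f : D → {x : Ω // x ≠ a ∧ x ≠ u a} := fun d => ⟨d.1 x, hDs _ d.2 x hx1, hDs' _ d.2 x hx2⟩
    have hf : Function.Injective f := by
      intro d e hde
      have h1 : d.1 x = e.1 x := congrArg Subtype.val hde
      by_contra hne
      have h2 : (e.1⁻¹ * d.1) ≠ 1 := by
        intro h3
        exact hne (Subtype.ext (inv_mul_eq_one.1 h3).symm)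
      rcases hfix _ (D.mul_mem (D.inv_mem e.2) d.2) h2 x (by rw [Perm.mul_apply, h1]; simp) with h3 | h3
      · exact hx1 h3
      · exact hx2 h3
    have hs := ((Nat.bijective_iff_injective_and_card f).2 ⟨hf, hΩ.symm⟩).2
    obtain ⟨d, hd⟩ := hs ⟨y, hy1, hy2⟩
    exact ⟨d.1, d.2, congrArg Subtype.val hd⟩
  refine ⟨Nat.card F, hprime, hF2', hcard.symm, ⟨?_, ?_⟩, ?_⟩
  · intro x1 y1 z1 x2 y2 z2 h1 h2 h3 h4 h5 h6
    obtain ⟨g, hg, hgx, hgy⟩ := h.c.h2 x1 y1 a (u a) h1 (h.huf a).symm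
    obtain ⟨k, hk, hkx, hky⟩ := h.c.h2 x2 y2 a (u a) h4 (h.huf a).symm
    obtain ⟨d, hd, hdz⟩ := htr (g z1) (k z2) (fun hc => h2 (g.injective (hgx.trans hc.symm)))
      (fun hc => h3 (g.injective (hgy.trans hc.symm))) (fun hc => h5 (k.injective (hkx.trans hc.symm)))
      (fun hc => h6 (k.injective (hky.trans hc.symm)))
    have hdD := (mem_D h).1 hd
    refine ⟨k⁻¹ * d * g, G.mul_mem (G.mul_mem (G.inv_mem hk) hdD.1.1) hg, ?_, ?_, ?_⟩
    · rw [Perm.mul_apply, Perm.mul_apply, hgx, hdD.1.2, Perm.inv_eq_iff_eq, hkx]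
    · rw [Perm.mul_apply, Perm.mul_apply, hgy, hdD.2, Perm.inv_eq_iff_eq, hky]
    · rw [Perm.mul_apply, Perm.mul_apply, hdz, Perm.inv_eq_iff_eq]
  · intro g hg x y z h1 h2 h3 hgx hgy hgz
    obtain ⟨k, hk, hkx, hky⟩ := h.c.h2 x y a (u a) h1 (h.huf a).symm
    have hkx' : k⁻¹ a = x := by rw [Perm.inv_eq_iff_eq, hkx]
    have hky' : k⁻¹ (u a) = y := by rw [Perm.inv_eq_iff_eq, hky]
    have hm : k * g * k⁻¹ ∈ D := by
      rw [mem_D h]
      refine ⟨⟨G.mul_mem (G.mul_mem hk hg) (G.inv_mem hk), ?_⟩, ?_⟩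
      · rw [Perm.mul_apply, Perm.mul_apply, hkx', hgx, hkx]
      · rw [Perm.mul_apply, Perm.mul_apply, hky', hgy, hky]
    by_contra hne
    have hne' : k * g * k⁻¹ ≠ 1 := by
      intro hc
      apply hne
      rwa [mul_inv_eq_one, mul_eq_left] at hc
    rcases hfix _ hm hne' (k z) (by
      have e : k⁻¹ (k z) = z := by rw [Perm.inv_eq_iff_eq]
      rw [Perm.mul_apply, Perm.mul_apply, e, hgz]) with hc | hc
    · exact h2 (k.injective (hkx.trans hc.symm))
    · exact h3 (k.injective (hky.trans hc.symm))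
  · intro g hg x y h1 hgx hgy
    obtain ⟨k, hk, hkx, hky⟩ := h.c.h2 x y a (u a) h1 (h.huf a).symm
    have hkx' : k⁻¹ a = x := by rw [Perm.inv_eq_iff_eq, hkx]
    have hky' : k⁻¹ (u a) = y := by rw [Perm.inv_eq_iff_eq, hky]
    have hg1 : (k * g * k⁻¹) a = u a := by rw [Perm.mul_apply, Perm.mul_apply, hkx', hgx, hky]
    have hg2 : (k * g * k⁻¹) (u a) = a := by rw [Perm.mul_apply, Perm.mul_apply, hky', hgy, hkx]
    have hm : u * (k * g * k⁻¹) ∈ D := by
      rw [mem_D h]
      refine ⟨⟨G.mul_mem huaA (G.mul_mem (G.mul_mem hk hg) (G.inv_mem hk)), ?_⟩, ?_⟩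
      · rw [Perm.mul_apply, hg1, huua]
      · rw [Perm.mul_apply, hg2]
    have h4 := hinv _ hm
    -- g' = u d, g' g' = 1
    set g' := k * g * k⁻¹ with hg'
    have h5 : g' * g' = 1 := by
      have h6 : u * (u * g') * u = g' * u := by rw [← mul_assoc u u, h.hu2, one_mul]
      rw [h6, mul_inv_rev] at h4
      have hui : u⁻¹ = u := by rw [inv_eq_iff_mul_eq_one, h.hu2]
      rw [hui] at h4
      have h7 : g' = g'⁻¹ := mul_right_cancel h4
      calc g' * g' = g' * g'⁻¹ := by rw [← h7]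
        _ = 1 := mul_inv_cancel g'
    have h8 : g * g = k⁻¹ * (g' * g') * k := by rw [hg']; group
    rw [h8, h5]; group

end Cfsg.Agent.Lib.AB68
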