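import Cfsg.Agent.Lib.AB68_P8k

/-! S3252, piece P8a (helper24). -/

set_option autoImplicit false

namespace Cfsg.Agent.Lib.AB68

open Equiv

universe u
variable {Ω : Type u}

/-- unique involution in a cyclic group -/
theorem H24uniq {X : Type*} [Group X] [Finite X] [IsCyclic X] {x y : X} (hx : x * x = 1) (hy : y * y = 1)
    (hx1 : x ≠ 1) (hy1 : y ≠ 1) : x = y := by
  classical
  let _ := Fintype.ofFinite X
  have h := IsCyclic.card_pow_eq_one_le (α := X) (n := 2) (by norm_num)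
  by_contra hxy
  have h1 : ({1, x, y} : Finset X) ⊆ Finset.univ.filter (fun a => a ^ 2 = 1) := by
    intro a ha
    rw [Finset.mem_filter]
    simp only [Finset.mem_insert, Finset.mem_singleton] at ha
    rcases ha with rfl | rfl | rfl
    · simp
    · exact ⟨Finset.mem_univ _, by rw [pow_two]; exact hx⟩
    · exact ⟨Finset.mem_univ _, by rw [pow_two]; exact hy⟩
  have h2 := Finset.card_le_card h1
  have h3 : ({1, x, y} : Finset X).card = 3 := by
    rw [Finset.card_insert_of_notMem, Finset.card_insert_of_notMem, Finset.card_singleton]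
    · simpa using hxy
    · simp only [Finset.mem_insert, Finset.mem_singleton, not_or]
      exact ⟨fun e => hx1 e.symm, fun e => hy1 e.symm⟩
  omega

/-- an involution acting on a cyclic `p`-group with a nontrivial fixed point acts trivially -/
theorem H24cyc {P : Type*} [Group P] {F : Subgroup P} (hF : IsCyclic F) {p n : ℕ} (hp : p.Prime) (hp2 : p ≠ 2)
    (hcard : Nat.card F = p ^ n) (t : P) (ht : t * t = 1) (hn : ∀ f ∈ F, t * f * t⁻¹ ∈ F) {f₀ : P} (hf₀ : f₀ ∈ F)
    (hf₁ : f₀ ≠ 1) (hc : t * f₀ * t⁻¹ = f₀) : ∀ f ∈ F, t * f = f * t := by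
  obtain ⟨w, hw⟩ := hF.exists_generator
  have hwF : (w : P) ∈ F := w.2
  have hord : orderOf (w : P) = p ^ n := by
    rw [Subgroup.orderOf_coe, orderOf_eq_card_of_forall_mem_zpowers hw, hcard]
  have mem : ∀ f ∈ F, ∃ k : ℤ, (w : P) ^ k = f := by
    intro f hf
    obtain ⟨k, hk⟩ := Subgroup.mem_zpowers_iff.1 (hw ⟨f, hf⟩)
    exact ⟨k, by rw [← SubgroupClass.coe_zpow, hk]⟩
  obtain ⟨k, hk⟩ := mem _ (hn w hwF)
  obtain ⟨j, hj⟩ := mem _ hf₀
  have hconj : ∀ i : ℤ, t * (w : P) ^ i * t⁻¹ = (w : P) ^ (k * i) := by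
    intro i
    rw [zpow_mul, hk, conj_zpow]
  have dvd : ∀ i : ℤ, (w : P) ^ i = 1 ↔ ((p : ℤ) ^ n) ∣ i := by
    intro i
    rw [← orderOf_dvd_iff_zpow_eq_one, hord]
    push_cast
    rfl
  have htt : t⁻¹ = t := by rw [inv_eq_iff_mul_eq_one]; exact ht
  have h1 : ((p : ℤ) ^ n) ∣ (k * k - 1) := by
    rw [← dvd, zpow_sub, zpow_one, mul_inv_eq_one, ← hconj k, hk]
    rw [htt]
    calc t * (t * (w : P) * t) * t = (t * t) * w * (t * t) := by group
      _ = w := by rw [ht]; group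
  have h2 : ((p : ℤ) ^ n) ∣ (k - 1) * j := by
    rw [← dvd]
    have : (k - 1) * j = k * j - j := by ring
    rw [this, zpow_sub, mul_inv_eq_one, ← hconj j, hj, hc]
  have h3 : ¬ ((p : ℤ) ^ n) ∣ j := by
    rw [← dvd, hj]; exact hf₁
  have hpi : Prime (p : ℤ) := Nat.prime_iff_prime_int.1 hp
  have h4 : (p : ℤ) ∣ k - 1 := by
    by_contra hcon
    have hcop : IsCoprime ((p : ℤ) ^ n) (k - 1) := (IsCoprime.pow_left ((Prime.coprime_iff_not_dvd hpi).2 hcon))
    exact h3 (hcop.dvd_of_dvd_mul_left h2)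
  have h5 : ¬ (p : ℤ) ∣ k + 1 := by
    intro h
    have h6 : (p : ℤ) ∣ 2 := by
      have := dvd_sub h h4
      have e : k + 1 - (k - 1) = 2 := by ring
      rwa [e] at this
    have h7 : p ∣ 2 := by exact_mod_cast h6
    have h8 := (Nat.prime_dvd_prime_iff_eq hp Nat.prime_two).1 h7
    exact hp2 h8
  have h6 : ((p : ℤ) ^ n) ∣ k - 1 := by
    have hcop : IsCoprime ((p : ℤ) ^ n) (k + 1) := (IsCoprime.pow_left ((Prime.coprime_iff_not_dvd hpi).2 h5))
    have e : k * k - 1 = (k + 1) * (k - 1) := by ring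
    rw [e] at h1
    exact hcop.dvd_of_dvd_mul_left h1
  have h7 : (w : P) ^ k = w := by
    have := (dvd (k - 1)).2 h6
    rw [zpow_sub, zpow_one, mul_inv_eq_one] at this
    exact this
  intro f hf
  obtain ⟨i, rfl⟩ := mem f hf
  have h8 := hconj i
  rw [zpow_mul, h7, mul_inv_eq_iff_eq_mul] at h8
  exact h8

section
variable {G A F D : Subgroup (Perm Ω)} {u : Perm Ω} {a : Ω} {t : Perm Ω} {p : ℕ}
  {G' : Subgroup (Perm {x : Ω // t x = x})}

theorem H24uG (h : T8 G A F D u a t p G') : u ∈ G := h.fd.c.hAG h.fd.huA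

theorem H24DG (h : T8 G A F D u a t p G') {d : Perm Ω} (hd : d ∈ D) : d ∈ G ∧ d a = a ∧ d (u a) = u a := by
  rw [h.fd.hD, mem_st2] at hd
  exact ⟨hd.1.1, hd.1.2, hd.2⟩

theorem H24Dt (h : T8 G A F D u a t p G') {d : Perm Ω} (hd : d ∈ D) : d * t = t * d := H24Dcomm h hd h.ht

/-- restriction to the fixed points of `t` -/
noncomputable def H24rho (h : T8 G A F D u a t p G') : D →* Perm {x : Ω // t x = x} where
  toFun e := (e : Perm Ω).subtypePerm (fun x => by
    constructor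
    · intro hx
      have h1 := H24fix (H24inv (H24Dt h e.2)) hx
      rwa [show (e : Perm Ω)⁻¹ ((e : Perm Ω) x) = x from by rw [← Perm.mul_apply]; simp] at h1
    · intro hx
      exact H24fix (H24Dt h e.2) hx)
  map_one' := by ext x; rfl
  map_mul' := by intro e e'; ext x; rfl

theorem H24rho_apply (h : T8 G A F D u a t p G') (e : D) (x : {x : Ω // t x = x}) :
    ((H24rho h e x : {x : Ω // t x = x}) : Ω) = (e : Perm Ω) x := rfl

theorem H24rho_mem (h : T8 G A F D u a t p G') (e : D) : H24rho h e ∈ G' := by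
  rw [h.hG']
  exact ⟨e, (H24DG h e.2).1, H24Dt h e.2, fun y => rfl⟩

theorem H24rho_one (h : T8 G A F D u a t p G') (e : D) : H24rho h e = 1 ↔ ∀ x, t x = x → (e : Perm Ω) x = x := by
  constructor
  · intro h1 x hx
    have h2 := H24rho_apply h e ⟨x, hx⟩
    rw [h1] at h2
    exact h2.symm
  · intro h1
    ext x
    rw [H24rho_apply]
    exact h1 x x.2

theorem H24phi_mul (h : T8 G A F D u a t p G') {e e' : Perm Ω} (he : e ∈ D) (he' : e' ∈ D) :
    (e * e')⁻¹ * (u * (e * e') * u) = (e⁻¹ * (u * e * u)) * (e'⁻¹ * (u * e' * u)) := by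
  have h1 : u * (e * e') * u = (u * e * u) * (u * e' * u) := by
    calc u * (e * e') * u = u * e * 1 * e' * u := by group
      _ = u * e * (u * u) * e' * u := by rw [h.fd.hu2]
      _ = _ := by group
  rw [h1, mul_inv_rev]
  have h2 := H24Dcomm h (D.inv_mem he') (D.mul_mem (D.inv_mem he) (h.fd.hDu e he))
  calc e'⁻¹ * e⁻¹ * (u * e * u * (u * e' * u)) = (e'⁻¹ * (e⁻¹ * (u * e * u))) * (u * e' * u) := by group
    _ = _ := by rw [h2]; group

/-- `e ↦ e⁻¹ e^u` -/
noncomputable def H24phi (h : T8 G A F D u a t p G') : D →* Perm Ω where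
  toFun e := (e : Perm Ω)⁻¹ * (u * e * u)
  map_one' := by simp [h.fd.hu2]
  map_mul' := by intro e e'; exact H24phi_mul h e.2 e'.2

theorem H24phi_mem (h : T8 G A F D u a t p G') {e : Perm Ω} (he : e ∈ D) : e⁻¹ * (u * e * u) ∈ D :=
  D.mul_mem (D.inv_mem he) (h.fd.hDu e he)

/-- `u d` acts on `Fix(t)` as an involution: `ρ(u d u) = ρ(d)⁻¹`. -/
theorem H24swap (h : T8 G A F D u a t p G') {d : Perm Ω} (hd : d ∈ D) {x : Ω} (hx : t x = x) :
    (u * d * u * d) x = x := by
  have hta := H24ta h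
  -- the restriction of `u * d`
  have hudt : (u * d) * t = t * (u * d) := by
    rw [mul_assoc, H24Dt h hd, ← mul_assoc, ← h.htu, mul_assoc]
  let g' : Perm {x : Ω // t x = x} := (u * d).subtypePerm (fun x => by
    constructor
    · intro hx
      have h1 := H24fix (H24inv hudt) hx
      rwa [show (u * d)⁻¹ ((u * d) x) = x from by rw [← Perm.mul_apply]; simp] at h1
    · intro hx
      exact H24fix hudt hx)
  have hg' : g' ∈ G' := by
    rw [h.hG']
    exact ⟨u * d, G.mul_mem (H24uG h) (H24DG h hd).1, hudt, fun y => rfl⟩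
  have h1 := h.hsw g' hg' ⟨a, hta⟩ ⟨u a, H24tua h⟩ (fun e => h.fd.huf a (congrArg Subtype.val e).symm)
    (Subtype.ext (by
      change (u * d) a = u a
      rw [Perm.mul_apply, (H24DG h hd).2.1]))
    (Subtype.ext (by
      change (u * d) (u a) = a
      rw [Perm.mul_apply, (H24DG h hd).2.2, ← Perm.mul_apply, h.fd.hu2, Perm.one_apply]))
  have h2 : (g' * g') ⟨x, hx⟩ = ⟨x, hx⟩ := by rw [h1]; rfl
  have h3 := congrArg Subtype.val h2
  exact h3

theorem H24phi_fix (h : T8 G A F D u a t p G') {e : Perm Ω} (he : e ∈ D) {x : Ω} (hx : t x = x) :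
    (e⁻¹ * (u * e * u)) x = (e⁻¹ * e⁻¹) x := by
  have h1 : t (e⁻¹ x) = e⁻¹ x := H24fix (H24inv (H24Dt h he)) hx
  have h2 := H24swap h he h1
  have h3 : (u * e * u * e) (e⁻¹ x) = (u * e * u) x := by
    rw [← Perm.mul_apply]
    congr 1
    group
  rw [h3] at h2
  rw [Perm.mul_apply, h2, ← Perm.mul_apply]

theorem H24ker_le (h : T8 G A F D u a t p G') {e : Perm Ω} (he : e ∈ D) (h1 : ∀ x, t x = x → e x = x) :
    e⁻¹ * (u * e * u) = 1 := by
  have h2 := central8 h e (H24DG h he).1 h1 u (H24uG h) h.htu.symm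
  calc e⁻¹ * (u * e * u) = e⁻¹ * (e * u * u) := by rw [h2]
    _ = u * u := by group
    _ = 1 := h.fd.hu2

theorem H24ker (h : T8 G A F D u a t p G') (ht : ∃ e ∈ D, t = e⁻¹ * (u * e * u)) :
    (H24phi h).ker = (H24rho h).ker := by
  have hfin := h.fd.c.hfin
  have hDc := h.fd.hDc
  have hXc : IsCyclic (H24rho h).range := isCyclic_of_surjective _ (H24rho h).rangeRestrict_surjective
  obtain ⟨e₀, he₀, hte⟩ := ht
  apply le_antisymm
  · intro e he
    rw [MonoidHom.mem_ker] at he ⊢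
    have he' : (e : Perm Ω)⁻¹ * (u * e * u) = 1 := he
    by_contra hne
    -- squares
    have sq : ∀ d : D, (∀ x, t x = x → ((d : Perm Ω)⁻¹ * (u * d * u)) x = x) → H24rho h d * H24rho h d = 1 := by
      intro d hd
      rw [← map_mul, H24rho_one]
      intro x hx
      have h1 := H24phi_fix h d.2 hx
      rw [hd x hx, Perm.mul_apply] at h1
      change ((d : Perm Ω) * (d : Perm Ω)) x = x
      rw [Perm.mul_apply]
      have h2 : (d : Perm Ω) x = (d : Perm Ω)⁻¹ x := by
        conv_lhs => rw [h1]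
        rw [← Perm.mul_apply, mul_inv_cancel, Perm.one_apply]
      rw [h2, ← Perm.mul_apply, mul_inv_cancel, Perm.one_apply]
    have h1 := sq e (fun x _ => by rw [he']; rfl)
    have h2 := sq ⟨e₀, he₀⟩ (fun x hx => by
      change (e₀⁻¹ * (u * e₀ * u)) x = x
      rw [← hte]; exact hx)
    have h3 : H24rho h ⟨e₀, he₀⟩ ≠ 1 := by
      intro h4
      rw [H24rho_one] at h4
      exact h.ht1 (by rw [hte]; exact H24ker_le h he₀ h4)
    have h4 : H24rho h e = H24rho h ⟨e₀, he₀⟩ := by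
      have := H24uniq (X := (H24rho h).range) (x := ⟨H24rho h e, ⟨e, rfl⟩⟩) (y := ⟨H24rho h ⟨e₀, he₀⟩, ⟨⟨e₀, he₀⟩, rfl⟩⟩)
        (Subtype.ext h1) (Subtype.ext h2) (fun hh => hne (congrArg Subtype.val hh))
        (fun hh => h3 (congrArg Subtype.val hh))
      exact congrArg Subtype.val this
    have h5 : H24rho h (e⁻¹ * ⟨e₀, he₀⟩) = 1 := by rw [map_mul, map_inv, h4, inv_mul_cancel]
    rw [H24rho_one] at h5
    have h6 := H24ker_le h (e⁻¹ * ⟨e₀, he₀⟩ : D).2 h5
    have h7 : H24phi h (e⁻¹ * ⟨e₀, he₀⟩) = 1 := h6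
    rw [map_mul, map_inv, he, inv_one, one_mul] at h7
    exact h.ht1 (by rw [hte]; exact h7)
  · intro e he
    rw [MonoidHom.mem_ker] at he ⊢
    rw [H24rho_one] at he
    exact H24ker_le h e.2 he

theorem H24range (h : T8 G A F D u a t p G') : Nat.card (H24rho h).range = p - 1 := by
  classical
  have hfin := h.fd.c.hfin
  have hta := H24ta h
  have htua := H24tua h
  have hcard : 3 ≤ Nat.card {x : Ω // t x = x} := by rw [h.hm]; have := H24p3 h; omega
  obtain ⟨x₀, hx1, hx2⟩ := H24third hcard ⟨a, hta⟩ ⟨u a, htua⟩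
  let a' : {x : Ω // t x = x} := ⟨a, hta⟩
  let b' : {x : Ω // t x = x} := ⟨u a, htua⟩
  have hab : a' ≠ b' := fun e => h.fd.huf a (congrArg Subtype.val e).symm
  have hfa : ∀ e : D, H24rho h e a' = a' := fun e => Subtype.ext (H24DG h e.2).2.1
  have hfb : ∀ e : D, H24rho h e b' = b' := fun e => Subtype.ext (H24DG h e.2).2.2
  have hb : Function.Bijective (fun g' : (H24rho h).range => (⟨(g' : Perm {x : Ω // t x = x}) x₀, by
      obtain ⟨g', ⟨e, rfl⟩⟩ := g'
      constructor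
      · intro h1
        exact hx1 ((H24rho h e).injective (h1.trans (hfa e).symm))
      · intro h1
        exact hx2 ((H24rho h e).injective (h1.trans (hfb e).symm))⟩ : {y : {x : Ω // t x = x} // y ≠ a' ∧ y ≠ b'})) := by
    constructor
    · rintro ⟨_, ⟨e, rfl⟩⟩ ⟨_, ⟨e', rfl⟩⟩ h1
      have h2 : H24rho h e x₀ = H24rho h e' x₀ := congrArg Subtype.val h1
      apply Subtype.ext
      change H24rho h e = H24rho h e'
      have h3 : H24rho h (e'⁻¹ * e) = 1 := by
        apply h.h3.2 _ (H24rho_mem h _) a' b' x₀ hab hx1.symm hx2.symm (hfa _) (hfb _)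
        rw [map_mul, Perm.mul_apply, h2, ← Perm.mul_apply, ← map_mul, inv_mul_cancel, map_one]
        rfl
      rw [map_mul, map_inv, inv_mul_eq_one] at h3
      exact h3.symm
    · rintro ⟨y, hy1, hy2⟩
      obtain ⟨g', hg', e1, e2, e3⟩ := h.h3.1 a' b' x₀ a' b' y hab hx1.symm hx2.symm hab hy1.symm hy2.symm
      obtain ⟨g, hg, hgt, hgy⟩ := (h.hG' g').1 hg'
      have hgD : g ∈ D := by
        rw [h.fd.hD, mem_st2]
        refine ⟨⟨hg, ?_⟩, ?_⟩
        · have := hgy a'
          rw [e1] at this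
          exact this.symm
        · have := hgy b'
          rw [e2] at this
          exact this.symm
      have h4 : H24rho h ⟨g, hgD⟩ = g' := by
        ext z
        rw [H24rho_apply]
        exact (hgy z).symm
      refine ⟨⟨g', ⟨⟨g, hgD⟩, h4⟩⟩, ?_⟩
      apply Subtype.ext
      exact e3
  rw [Nat.card_congr (Equiv.ofBijective _ hb)]
  let _ := Fintype.ofFinite {x : Ω // t x = x}
  rw [Nat.card_eq_fintype_card, Fintype.card_subtype]
  have h5 : (Finset.univ.filter (fun y : {x : Ω // t x = x} => y ≠ a' ∧ y ≠ b')) = (Finset.univ.erase a').erase b' := by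
    ext y
    simp only [Finset.mem_filter, Finset.mem_univ, true_and, Finset.mem_erase, and_true]
    exact and_comm
  rw [h5, Finset.card_erase_of_mem, Finset.card_erase_of_mem (Finset.mem_univ _), Finset.card_univ, ← Nat.card_eq_fintype_card, h.hm]
  · omega
  · rw [Finset.mem_erase]
    exact ⟨hab.symm, Finset.mem_univ _⟩

end

/- P8a -/
theorem case8a {G A F D : Subgroup (Perm Ω)} {u : Perm Ω} {a : Ω} {t : Perm Ω} {p : ℕ}
    {G' : Subgroup (Perm {x : Ω // t x = x})} (h : T8 G A F D u a t p G')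
    (hcount : Nat.card Ω = (p + 1) + (p + 1) * p * Nat.card {d : Perm Ω // ∃ e ∈ D, d = e⁻¹ * (u * e * u)})
    (ht : ∃ e ∈ D, t = e⁻¹ * (u * e * u)) : False := by
  have hfin := h.fd.c.hfin
  have hp3 := H24p3 h
  have hJ : Nat.card {d : Perm Ω // ∃ e ∈ D, d = e⁻¹ * (u * e * u)} = p - 1 := by
    have h1 : Nat.card {d : Perm Ω // ∃ e ∈ D, d = e⁻¹ * (u * e * u)} = Nat.card (H24phi h).range := by
      apply Nat.card_congr
      apply Equiv.subtypeEquivRight
      intro d
      constructor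
      · rintro ⟨e, he, rfl⟩
        exact ⟨⟨e, he⟩, rfl⟩
      · rintro ⟨e, rfl⟩
        exact ⟨e, e.2, rfl⟩
    rw [h1, ← Subgroup.index_ker, H24ker h ht, Subgroup.index_ker, H24range h]
  have hF : Nat.card F = p ^ 3 := by
    have h1 := h.fd.hFcard
    obtain ⟨q, rfl⟩ : ∃ q, p = q + 1 := ⟨p - 1, by omega⟩
    rw [hcount, hJ, Nat.add_sub_cancel] at h1
    have h2 : (q + 1 + 1) + (q + 1 + 1) * (q + 1) * q = (q + 1) ^ 3 + 1 := by ring
    omega
  have hcard : 3 ≤ Nat.card {x : Ω // t x = x} := by rw [h.hm]; omega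
  obtain ⟨⟨x, hx⟩, hx1, hx2⟩ := H24third hcard ⟨a, H24ta h⟩ ⟨u a, H24tua h⟩
  have hxa : x ≠ a := fun e => hx1 (Subtype.ext e)
  have hxu : x ≠ u a := fun e => hx2 (Subtype.ext e)
  obtain ⟨f, hf, hfx, hft⟩ := H24Ft h hxa hx
  have h1 := H24cyc h.fd.hFc h.hp h.hp2 hF t h.ht2 (h.fd.hFn t ⟨H24tG h, H24ta h⟩) hf
    (by rintro rfl; exact hxu hfx.symm) (by rw [← hft]; group)
  apply h.ht1
  ext y
  rw [Perm.one_apply]
  by_cases hy : y = a
  · rw [hy]; exact H24ta h
  · obtain ⟨g, ⟨hg, hgy⟩, -⟩ := h.fd.hFr y hy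
    rw [← hgy, ← Perm.mul_apply, h1 g hg, Perm.mul_apply, H24tua h]

end Cfsg.Agent.Lib.AB68
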