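import Cfsg.Agent.Lib.AB68

/-! S3252, piece P8k (helper24): `C_G(t)` centralizes the kernel on `Fix(t)`. -/

set_option autoImplicit false

namespace Cfsg.Agent.Lib.AB68

open Equiv

universe u
variable {Ω : Type u}

theorem H24third {α : Type*} [Finite α] (h : 3 ≤ Nat.card α) (p q : α) : ∃ r, r ≠ p ∧ r ≠ q := by
  classical
  let _ := Fintype.ofFinite α
  by_contra hcon
  push Not at hcon
  have h1 : (Finset.univ : Finset α) ⊆ {p, q} := by
    intro r _
    rw [Finset.mem_insert, Finset.mem_singleton]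
    by_cases hr : r = p
    · exact Or.inl hr
    · exact Or.inr (hcon r hr)
  have h2 := Finset.card_le_card h1
  have h3 : ({p, q} : Finset α).card ≤ 2 := Finset.card_le_two
  rw [Finset.card_univ, ← Nat.card_eq_fintype_card] at h2
  omega

section
variable {G A F D : Subgroup (Perm Ω)} {u : Perm Ω} {a : Ω} {t : Perm Ω} {p : ℕ}
  {G' : Subgroup (Perm {x : Ω // t x = x})}

theorem H24ta (h : T8 G A F D u a t p G') : t a = a := by
  have := h.ht
  rw [h.fd.hD, mem_st2] at this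
  exact this.1.2

theorem H24tG (h : T8 G A F D u a t p G') : t ∈ G := by
  have := h.ht
  rw [h.fd.hD, mem_st2] at this
  exact this.1.1

theorem H24tua (h : T8 G A F D u a t p G') : t (u a) = u a := by
  have := h.ht
  rw [h.fd.hD, mem_st2] at this
  exact this.2

theorem H24p3 (h : T8 G A F D u a t p G') : 3 ≤ p := by
  have h1 := h.hp.two_le
  have h2 := h.hp2
  omega

/-- the unique element of `F` moving `u a` to a fixed point of `t` commutes with `t` -/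
theorem H24Ft (h : T8 G A F D u a t p G') {x : Ω} (hx : x ≠ a) (htx : t x = x) :
    ∃ f ∈ F, f (u a) = x ∧ f * t = t * f := by
  obtain ⟨f, ⟨hf, hfx⟩, huniq⟩ := h.fd.hFr x hx
  have h1 : t * f * t⁻¹ ∈ F := h.fd.hFn t ⟨H24tG h, H24ta h⟩ f hf
  have h2 : (t * f * t⁻¹) (u a) = x := by
    rw [Perm.mul_apply, Perm.mul_apply]
    have : t⁻¹ (u a) = u a := by rw [Perm.inv_eq_iff_eq]; exact (H24tua h).symm
    rw [this, hfx, htx]
  have h3 := huniq _ ⟨h1, h2⟩
  refine ⟨f, hf, hfx, ?_⟩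
  rw [mul_inv_eq_iff_eq_mul] at h3
  exact h3.symm

/-- an element of `F` fixing `u a` is trivial -/
theorem H24F1 (h : FD G A F D u a) {f : Perm Ω} (hf : f ∈ F) (hfa : f (u a) = u a) : f = 1 := by
  obtain ⟨g, _, huniq⟩ := h.hFr (u a) (h.huf a)
  rw [huniq f ⟨hf, hfa⟩, ← huniq 1 ⟨F.one_mem, rfl⟩]

/-- double transitivity of `C_G(t)` on `Fix(t)` -/
theorem H24two (h : T8 G A F D u a t p G') {x y x' y' : Ω} (hx : t x = x) (hy : t y = y) (hx' : t x' = x')
    (hy' : t y' = y') (hxy : x ≠ y) (hxy' : x' ≠ y') : ∃ c ∈ G, c * t = t * c ∧ c x = x' ∧ c y = y' := by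
  have hfin := h.fd.c.hfin
  have h3 := H24p3 h
  have hcard : 3 ≤ Nat.card {x : Ω // t x = x} := by rw [h.hm]; omega
  obtain ⟨z, hz1, hz2⟩ := H24third hcard ⟨x, hx⟩ ⟨y, hy⟩
  obtain ⟨z', hz1', hz2'⟩ := H24third hcard ⟨x', hx'⟩ ⟨y', hy'⟩
  obtain ⟨g', hg', e1, e2, -⟩ := h.h3.1 ⟨x, hx⟩ ⟨y, hy⟩ z ⟨x', hx'⟩ ⟨y', hy'⟩ z'
    (fun e => hxy (congrArg Subtype.val e)) hz1.symm hz2.symm
    (fun e => hxy' (congrArg Subtype.val e)) hz1'.symm hz2'.symm
  obtain ⟨g, hg, hgt, hgy⟩ := (h.hG' g').1 hg'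
  refine ⟨g, hg, hgt, ?_, ?_⟩
  · have := hgy ⟨x, hx⟩
    rw [e1] at this
    exact this.symm
  · have := hgy ⟨y, hy⟩
    rw [e2] at this
    exact this.symm

/-- elements commuting with `t` preserve `Fix(t)` -/
theorem H24fix {c : Perm Ω} (hct : c * t = t * c) {x : Ω} (hx : t x = x) : t (c x) = c x := by
  have h1 : (t * c) x = (c * t) x := by rw [hct]
  rw [Perm.mul_apply, Perm.mul_apply, hx] at h1
  exact h1

theorem H24inv {c : Perm Ω} (hct : c * t = t * c) : c⁻¹ * t = t * c⁻¹ := by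
  rw [inv_mul_eq_iff_eq_mul, ← mul_assoc, hct, mul_inv_cancel_right]

/-- the kernel is contained in `D` -/
theorem H24kD (h : T8 G A F D u a t p G') {k : Perm Ω} (hk : k ∈ G) (hkf : ∀ x, t x = x → k x = x) : k ∈ D := by
  rw [h.fd.hD, mem_st2]
  exact ⟨⟨hk, hkf a (H24ta h)⟩, hkf (u a) (H24tua h)⟩

theorem H24Dcomm (h : T8 G A F D u a t p G') {d e : Perm Ω} (hd : d ∈ D) (he : e ∈ D) : d * e = e * d := by
  have := h.fd.hDc
  have h1 : (⟨d, hd⟩ : D) * ⟨e, he⟩ = ⟨e, he⟩ * ⟨d, hd⟩ := IsMulCommutative.is_comm.comm _ _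
  exact congrArg Subtype.val h1

theorem H24kf (h : T8 G A F D u a t p G') {k : Perm Ω} (hk : k ∈ G) (hkf : ∀ x, t x = x → k x = x)
    {f : Perm Ω} (hf : f ∈ F) (hft : f * t = t * f) : k * f = f * k := by
  have h1 : k * f * k⁻¹ * f⁻¹ ∈ F := F.mul_mem (h.fd.hFn k ⟨hk, hkf a (H24ta h)⟩ f hf) (F.inv_mem hf)
  have h2 : (k * f * k⁻¹ * f⁻¹) (u a) = u a := by
    rw [Perm.mul_apply, Perm.mul_apply, Perm.mul_apply]
    have h3 : t (f⁻¹ (u a)) = f⁻¹ (u a) := H24fix (H24inv hft) (H24tua h)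
    have h4 : k⁻¹ (f⁻¹ (u a)) = f⁻¹ (u a) := by rw [Perm.inv_eq_iff_eq]; exact (hkf _ h3).symm
    rw [h4, show f (f⁻¹ (u a)) = u a from by rw [← Perm.mul_apply]; simp]
    exact hkf _ (H24tua h)
  have h3 := H24F1 h.fd h1 h2
  rw [mul_inv_eq_one, mul_inv_eq_iff_eq_mul] at h3
  exact h3

theorem H24kst (h : T8 G A F D u a t p G') {k : Perm Ω} (hk : k ∈ G) (hkf : ∀ x, t x = x → k x = x)
    {g : Perm Ω} (hg : g ∈ G) (hgt : g * t = t * g) (hga : g a = a) : k * g = g * k := by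
  obtain ⟨f, hf, d, hd, rfl⟩ := h.fd.hFD g ⟨hg, hga⟩
  have hdt := H24Dcomm h hd h.ht
  have hft : f * t = t * f := by
    have h1 : f * t * d = t * f * d := by
      rw [mul_assoc f t d, ← hdt, ← mul_assoc, hgt, mul_assoc]
    exact mul_right_cancel h1
  have h1 := H24kf h hk hkf hf hft
  have h2 := H24Dcomm h (H24kD h hk hkf) hd
  rw [← mul_assoc, h1, mul_assoc, h2, mul_assoc]

/- P8k -/
theorem central8 {G A F D : Subgroup (Perm Ω)} {u : Perm Ω} {a : Ω} {t : Perm Ω} {p : ℕ}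
    {G' : Subgroup (Perm {x : Ω // t x = x})} (h : T8 G A F D u a t p G') (k : Perm Ω) (hk : k ∈ G)
    (hkf : ∀ x, t x = x → k x = x) (c : Perm Ω) (hc : c ∈ G) (hct : c * t = t * c) : k * c = c * k := by
  have hfin := h.fd.c.hfin
  by_cases hca : c a = a
  · exact H24kst h hk hkf hc hct hca
  have hta := H24ta h
  have hy : t (c a) = c a := H24fix hct hta
  -- a third point
  have hcard : 3 ≤ Nat.card {x : Ω // t x = x} := by rw [h.hm]; have := H24p3 h; omega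
  obtain ⟨⟨x, hx⟩, hx1, hx2⟩ := H24third hcard ⟨a, hta⟩ ⟨u a, H24tua h⟩
  have hxa : x ≠ a := fun e => hx1 (Subtype.ext e)
  have hxu : x ≠ u a := fun e => hx2 (Subtype.ext e)
  obtain ⟨f, hf, hfx, hft⟩ := H24Ft h hxa hx
  obtain ⟨c', hc', hct', e1, e2⟩ := H24two h (H24tua h) hx hta hy hxu.symm (Ne.symm hca)
  -- `z = c' f c'⁻¹` commutes with `k` and maps `a` to `c a`
  have hfG : f ∈ G := (h.fd.hF hf).1
  have hkc : ∀ x, t x = x → (c'⁻¹ * k * c') x = x := by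
    intro w hw
    rw [Perm.mul_apply, Perm.mul_apply, hkf _ (H24fix hct' hw), show c'⁻¹ (c' w) = w from by rw [← Perm.mul_apply]; simp]
  have h1 : (c'⁻¹ * k * c') * f = f * (c'⁻¹ * k * c') :=
    H24kf h (G.mul_mem (G.mul_mem (G.inv_mem hc') hk) hc') hkc hf hft
  have h2 : k * (c' * f * c'⁻¹) = (c' * f * c'⁻¹) * k := by
    calc k * (c' * f * c'⁻¹) = c' * ((c'⁻¹ * k * c') * f) * c'⁻¹ := by group
      _ = c' * (f * (c'⁻¹ * k * c')) * c'⁻¹ := by rw [h1]
      _ = (c' * f * c'⁻¹) * k := by group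
  have hza : (c' * f * c'⁻¹) a = c a := by
    rw [Perm.mul_apply, Perm.mul_apply]
    have : c'⁻¹ a = u a := by rw [Perm.inv_eq_iff_eq]; exact e1.symm
    rw [this, hfx, e2]
  have hzt : (c' * f * c'⁻¹) * t = t * (c' * f * c'⁻¹) := by
    calc (c' * f * c'⁻¹) * t = c' * f * (c'⁻¹ * t) := by group
      _ = c' * (f * t) * c'⁻¹ := by rw [H24inv hct']; group
      _ = (c' * t) * f * c'⁻¹ := by rw [hft]; group
      _ = t * (c' * f * c'⁻¹) := by rw [hct']; group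
  set z := c' * f * c'⁻¹ with hz
  have hzG : z ∈ G := G.mul_mem (G.mul_mem hc' hfG) (G.inv_mem hc')
  have h3 : k * (z⁻¹ * c) = (z⁻¹ * c) * k := by
    apply H24kst h hk hkf (G.mul_mem (G.inv_mem hzG) hc)
    · rw [mul_assoc, hct, ← mul_assoc, H24inv hzt, mul_assoc]
    · rw [Perm.mul_apply, Perm.inv_eq_iff_eq]; exact hza.symm
  calc k * c = (k * z) * (z⁻¹ * c) := by group
    _ = z * (k * (z⁻¹ * c)) := by rw [h2]; group
    _ = z * ((z⁻¹ * c) * k) := by rw [h3]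
    _ = c * k := by group

end

end Cfsg.Agent.Lib.AB68
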