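import Mathlib
import Cfsg.Agent.Lib.AB68

/-! Piece P9 of the product theorem: in a sharply triply transitive group whose two point
stabilizers are cyclic, a fixed point free involution commutes with a distinct conjugate. -/

set_option autoImplicit false

namespace Cfsg.Agent.Lib.AB68

open Equiv

universe u
variable {Ω : Type u}

namespace P9h

/-- in a cyclic group the squares have index at most two -/
theorem sq_or {P : Type*} [Group P] (D : Subgroup P) (hD : IsCyclic D) (d d' : P) (hd : d ∈ D)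
    (hd' : d' ∈ D) (h1 : ¬ ∃ e ∈ D, d = e * e) (h2 : ¬ ∃ e ∈ D, d' = e * e) :
    ∃ e ∈ D, d = d' * (e * e) := by
  obtain ⟨⟨z, hz⟩, hz2⟩ := hD.exists_generator
  obtain ⟨i, hi⟩ := Subgroup.mem_zpowers_iff.1 (hz2 ⟨d, hd⟩)
  obtain ⟨j, hj⟩ := Subgroup.mem_zpowers_iff.1 (hz2 ⟨d', hd'⟩)
  have hi' : z ^ i = d := congrArg Subtype.val hi
  have hj' : z ^ j = d' := congrArg Subtype.val hj
  have oi : Odd i := by
    rw [← Int.not_even_iff_odd]; rintro ⟨k, hk⟩
    exact h1 ⟨z ^ k, D.zpow_mem hz k, by rw [← hi', hk, zpow_add]⟩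
  have oj : Odd j := by
    rw [← Int.not_even_iff_odd]; rintro ⟨k, hk⟩
    exact h2 ⟨z ^ k, D.zpow_mem hz k, by rw [← hj', hk, zpow_add]⟩
  obtain ⟨k, hk⟩ := oi.sub_odd oj
  refine ⟨z ^ k, D.zpow_mem hz k, ?_⟩
  rw [← hi', ← hj', ← zpow_add, ← zpow_add, ← hk]
  congr 1; ring

/-- a cyclic group has at most one involution -/
theorem invol_unique {P : Type*} [Group P] [Finite P] (D : Subgroup P) (hD : IsCyclic D) (x y : P)
    (hx : x ∈ D) (hy : y ∈ D) (hx2 : x * x = 1) (hy2 : y * y = 1) (hx1 : x ≠ 1) (hy1 : y ≠ 1) :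
    x = y := by
  classical
  by_contra hne
  have := Fintype.ofFinite D
  have h := IsCyclic.card_pow_eq_one_le (α := D) (n := 2) (by norm_num)
  have hsub : ({1, ⟨x, hx⟩, ⟨y, hy⟩} : Finset D) ⊆ Finset.univ.filter (fun a : D => a ^ 2 = 1) := by
    intro a ha
    simp only [Finset.mem_insert, Finset.mem_singleton] at ha
    simp only [Finset.mem_filter, Finset.mem_univ, true_and]
    rcases ha with rfl | rfl | rfl
    · simp
    · rw [sq]; exact Subtype.ext hx2
    · rw [sq]; exact Subtype.ext hy2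
  have h3 : ({1, ⟨x, hx⟩, ⟨y, hy⟩} : Finset D).card = 3 := by
    rw [Finset.card_insert_of_notMem, Finset.card_insert_of_notMem, Finset.card_singleton]
    · intro h'
      rw [Finset.mem_singleton] at h'
      exact hne (congrArg Subtype.val h')
    · intro h'
      simp only [Finset.mem_insert, Finset.mem_singleton] at h'
      rcases h' with h' | h'
      · exact hx1 (congrArg Subtype.val h').symm
      · exact hy1 (congrArg Subtype.val h').symm
  have := Finset.card_le_card hsub
  omega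

end P9h

open P9h in
theorem lemV [Finite Ω] (H : Subgroup (Perm Ω)) (h3 : Sh3 H) (hsw : Sw H)
    (hc : ∀ a b : Ω, a ≠ b → IsCyclic (st2 H a b)) (u : Perm Ω) (hu : u ∈ H) (huf : ∀ x, u x ≠ x)
    (hu2 : u * u = 1) (h4 : 4 ≤ Nat.card Ω) :
    ∃ h ∈ H, h * u * h⁻¹ ≠ u ∧ (h * u * h⁻¹) * u = u * (h * u * h⁻¹) := by
  classical
  have huu : ∀ x, u (u x) = x := fun x => by
    have := congrArg (fun g : Perm Ω => g x) hu2
    simpa using this
  have : Fintype Ω := Fintype.ofFinite Ω
  rw [Nat.card_eq_fintype_card] at h4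
  have : Nonempty Ω := Fintype.card_pos_iff.1 (by omega)
  obtain ⟨a⟩ := ‹Nonempty Ω›
  set b := u a with hb
  have hub : u b = a := by rw [hb, huu]
  have hba : b ≠ a := huf a
  -- a third point
  have third : ∀ x y : Ω, ∃ z, z ≠ x ∧ z ≠ y := by
    intro x y
    by_contra hcon
    push Not at hcon
    have : (Finset.univ : Finset Ω) ⊆ {x, y} := by
      intro z _
      simp only [Finset.mem_insert, Finset.mem_singleton]
      by_cases hz : z = x
      · exact Or.inl hz
      · exact Or.inr (hcon z hz)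
    have h5 := Finset.card_le_card this
    rw [Finset.card_univ] at h5
    have h6 := Finset.card_le_two (a := x) (b := y)
    omega
  -- the elements w_c
  have hw : ∀ c : Ω, c ≠ a → c ≠ b → ∃ w ∈ H, w a = c ∧ w c = a ∧ w b = u c ∧ w * w = 1 ∧
      w * u = u * w := by
    intro c hca hcb
    have huca : u c ≠ a := fun h => hcb (by rw [← huu c, h])
    have hucb : u c ≠ b := fun h => hca (u.injective h)
    obtain ⟨w, hwH, hwa, hwc, hwb⟩ := h3.1 a c b c a (u c) hca.symm hba.symm hcb hca (huf c).symm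
      huca.symm
    have hww : w * w = 1 := hsw w hwH a c hca.symm hwa hwc
    have hww' : ∀ x, w (w x) = x := fun x => by
      have := congrArg (fun g : Perm Ω => g x) hww
      simpa using this
    have hwuc : w (u c) = b := by rw [← hwb, hww']
    refine ⟨w, hwH, hwa, hwc, hwb, hww, ?_⟩
    have hone : u⁻¹ * (w⁻¹ * u * w) = 1 := by
      apply h3.2 _ (H.mul_mem (H.inv_mem hu) (H.mul_mem (H.mul_mem (H.inv_mem hwH) hu) hwH)) a c (u c)
        hca.symm huca.symm (huf c).symm
      · simp only [Perm.mul_apply]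
        rw [hwa, Perm.inv_eq_iff_eq, Perm.inv_eq_iff_eq, ← hb, hwb]
      · simp only [Perm.mul_apply]
        rw [hwc, Perm.inv_eq_iff_eq, Perm.inv_eq_iff_eq, ← hb, hwuc]
      · simp only [Perm.mul_apply]
        rw [hwuc, Perm.inv_eq_iff_eq, Perm.inv_eq_iff_eq, hub, huu, hwc]
    have h7 : w⁻¹ * u * w = u := by
      rw [inv_mul_eq_one] at hone; exact hone.symm
    calc w * u = w * (w⁻¹ * u * w) := by rw [h7]
      _ = u * w := by group
  choose! W hWH hWa hWc hWb hWW hWu using hw
  have hW1 : ∀ c, c ≠ a → c ≠ b → W c ≠ 1 := by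
    intro c hca hcb h
    have := hWa c hca hcb
    rw [h] at this
    exact hca this.symm
  -- some w_c is fixed point free
  have hex : ∃ c, c ≠ a ∧ c ≠ b ∧ ∀ x, W c x ≠ x := by
    by_contra hcon
    push Not at hcon
    have hcon' : ∀ c, c ≠ a → c ≠ b → ∃ x, W c x = x := fun c h1 h2 => hcon c h1 h2
    choose! f hf using hcon'
    -- f c is not a or b
    have hfa : ∀ c, c ≠ a → c ≠ b → f c ≠ a := by
      intro c hca hcb h
      have h8 := hf c hca hcb
      rw [h, hWa c hca hcb] at h8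
      exact hca h8
    have hfb : ∀ c, c ≠ a → c ≠ b → f c ≠ b := by
      intro c hca hcb h
      have h8 := hf c hca hcb
      rw [h, hWb c hca hcb] at h8
      exact hca (u.injective h8)
    -- key uniqueness
    have key : ∀ c c', c ≠ a → c ≠ b → c' ≠ a → c' ≠ b → (f c' = f c ∨ f c' = u (f c)) → c' = c := by
      intro c c' hca hcb hca' hcb' h
      have hm : W c ∈ st2 H (f c) (u (f c)) := by
        rw [mem_st2]
        refine ⟨⟨hWH c hca hcb, hf c hca hcb⟩, ?_⟩
        have := congrArg (fun g : Perm Ω => g (f c)) (hWu c hca hcb)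
        simp only [Perm.mul_apply] at this
        rw [this, hf c hca hcb]
      have hm' : W c' ∈ st2 H (f c) (u (f c)) := by
        have h9 : W c' (u (f c')) = u (f c') := by
          have := congrArg (fun g : Perm Ω => g (f c')) (hWu c' hca' hcb')
          simp only [Perm.mul_apply] at this
          rw [this, hf c' hca' hcb']
        have h10 := hf c' hca' hcb'
        rw [mem_st2]
        rcases h with h | h
        · rw [h] at h9 h10
          exact ⟨⟨hWH c' hca' hcb', h10⟩, h9⟩
        · rw [h] at h9 h10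
          rw [huu] at h9
          exact ⟨⟨hWH c' hca' hcb', h9⟩, h10⟩
      have h11 : W c' = W c := invol_unique _ (hc (f c) (u (f c)) (huf _).symm) _ _ hm' hm
        (hWW c' hca' hcb') (hWW c hca hcb) (hW1 c' hca' hcb') (hW1 c hca hcb)
      rw [← hWa c' hca' hcb', h11, hWa c hca hcb]
    -- f is a permutation of the complement
    obtain ⟨c₀, hc₀a, hc₀b⟩ := third a b
    let g : {c : Ω // c ≠ a ∧ c ≠ b} → {c : Ω // c ≠ a ∧ c ≠ b} := fun c =>
      ⟨f c, hfa c c.2.1 c.2.2, hfb c c.2.1 c.2.2⟩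
    have hg : Function.Injective g := by
      intro c c' h
      apply Subtype.ext
      exact key c' c c'.2.1 c'.2.2 c.2.1 c.2.2 (Or.inl (congrArg Subtype.val h))
    have hgs : Function.Surjective g := Finite.surjective_of_injective hg
    have hy1 : u (f c₀) ≠ a := fun h => hfb c₀ hc₀a hc₀b (by rw [← huu (f c₀), h])
    have hy2 : u (f c₀) ≠ b := fun h => hfa c₀ hc₀a hc₀b (u.injective h)
    obtain ⟨c', hc'⟩ := hgs ⟨u (f c₀), hy1, hy2⟩
    have h12 : f c' = u (f c₀) := congrArg Subtype.val hc'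
    have h13 := key c₀ c' hc₀a hc₀b c'.2.1 c'.2.2 (Or.inr h12)
    rw [h13] at h12
    exact huf _ h12.symm
  obtain ⟨c, hca, hcb, hfpf⟩ := hex
  set w := W c with hwdef
  have hwa := hWa c hca hcb
  have hwc := hWc c hca hcb
  -- conjugate to swap a and b
  obtain ⟨z, hza, hzc⟩ := third a c
  obtain ⟨z', hza', hzb'⟩ := third a b
  obtain ⟨g, hgH, hga, hgc, -⟩ := h3.1 a c z a b z' hca.symm hza.symm hzc.symm hba.symm hza'.symm
    hzb'.symm
  have hga' : g⁻¹ a = a := by rw [Perm.inv_eq_iff_eq]; exact hga.symm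
  have hgb' : g⁻¹ b = c := by rw [Perm.inv_eq_iff_eq]; exact hgc.symm
  set w1 := g * w * g⁻¹ with hw1
  have hw1H : w1 ∈ H := H.mul_mem (H.mul_mem hgH (hWH c hca hcb)) (H.inv_mem hgH)
  have hw1a : w1 a = b := by
    rw [hw1]; simp only [Perm.mul_apply]; rw [hga', hwa, hgc]
  have hw1b : w1 b = a := by
    rw [hw1]; simp only [Perm.mul_apply]; rw [hgb', hwc, hga]
  have hw1f : ∀ x, w1 x ≠ x := by
    intro x h
    rw [hw1] at h; simp only [Perm.mul_apply] at h
    apply hfpf (g⁻¹ x)
    rw [Perm.eq_inv_iff_eq]; exact h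
  -- u inverts the stabilizer of a and b
  have hinv : ∀ e ∈ st2 H a b, u * e = e⁻¹ * u := by
    intro e he
    rw [mem_st2] at he
    have h14 : (u * e) * (u * e) = 1 := by
      apply hsw (u * e) (H.mul_mem hu he.1.1) a b hba.symm
      · rw [Perm.mul_apply, he.1.2]
      · rw [Perm.mul_apply, he.2, hub]
    calc u * e = e⁻¹ * (e * (u * e)) := by group
      _ = e⁻¹ * (u * u * (e * (u * e))) := by rw [hu2, one_mul]
      _ = e⁻¹ * (u * ((u * e) * (u * e))) := by group
      _ = e⁻¹ * u := by rw [h14, mul_one]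
  have huinv : u⁻¹ = u := inv_eq_of_mul_eq_one_left hu2
  have hcyc := hc a b hba.symm
  have hdm : u * w1 ∈ st2 H a b := by
    rw [mem_st2]
    refine ⟨⟨H.mul_mem hu hw1H, ?_⟩, ?_⟩
    · rw [Perm.mul_apply, hw1a, hub]
    · rw [Perm.mul_apply, hw1b]
  have hw1d : w1 = u * (u * w1) := by rw [← mul_assoc, hu2, one_mul]
  have hconj : ∃ e ∈ st2 H a b, u * w1 = e * e := by
    by_contra hnsq
    obtain ⟨x, hxa, hxb⟩ := third a b
    obtain ⟨y, hyH, hya, hyb, hyx⟩ := h3.1 a b x b a x hba.symm hxa.symm hxb.symm hba hxb.symm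
      hxa.symm
    have hd'm : u * y ∈ st2 H a b := by
      rw [mem_st2]
      refine ⟨⟨H.mul_mem hu hyH, ?_⟩, ?_⟩
      · rw [Perm.mul_apply, hya, hub]
      · rw [Perm.mul_apply, hyb]
    have hyd : y = u * (u * y) := by rw [← mul_assoc, hu2, one_mul]
    have hns' : ¬ ∃ e ∈ st2 H a b, u * y = e * e := by
      rintro ⟨e, he, hee⟩
      have h15 : y = e⁻¹ * u * e := by
        rw [hyd, hee, ← mul_assoc, hinv e he]
      have h16 : u (e x) = e x := by
        have := congrArg (fun g : Perm Ω => g x) h15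
        simp only [Perm.mul_apply] at this
        rw [hyx, Perm.eq_inv_iff_eq] at this
        exact this.symm
      exact huf _ h16
    obtain ⟨e, he, hee⟩ := sq_or (st2 H a b) hcyc (u * w1) (u * y) hdm hd'm hnsq hns'
    have hye : y * e = e⁻¹ * y := by
      have hcomm : (u * y) * e = e * (u * y) := by
        let _ : CommGroup (st2 H a b) := IsCyclic.commGroup
        have := mul_comm (⟨u * y, hd'm⟩ : st2 H a b) ⟨e, he⟩
        exact congrArg Subtype.val this
      calc y * e = u * ((u * y) * e) := by rw [← mul_assoc, ← mul_assoc, hu2, one_mul]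
        _ = u * (e * (u * y)) := by rw [hcomm]
        _ = (u * e) * (u * y) := by group
        _ = (e⁻¹ * u) * (u * y) := by rw [hinv e he]
        _ = e⁻¹ * (u * u) * y := by group
        _ = e⁻¹ * y := by rw [hu2, mul_one]
    have h17 : w1 = e⁻¹ * y * e := by
      calc w1 = u * (u * w1) := hw1d
        _ = u * ((u * y) * (e * e)) := by rw [hee]
        _ = (u * u) * ((y * e) * e) := by group
        _ = e⁻¹ * y * e := by rw [hu2, one_mul, hye]
    apply hw1f (e⁻¹ x)
    rw [h17]
    simp only [Perm.mul_apply]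
    rw [show e (e⁻¹ x) = x from e.apply_symm_apply x, hyx]
  obtain ⟨e, he, hee⟩ := hconj
  have heH : e ∈ H := (mem_st2.1 he).1.1
  have h18 : w1 = e⁻¹ * u * e := by
    rw [hw1d, hee, ← mul_assoc, hinv e he]
  have h19 : (g⁻¹ * e⁻¹) * u * (g⁻¹ * e⁻¹)⁻¹ = w := by
    have : w = g⁻¹ * w1 * g := by rw [hw1]; group
    rw [this, h18]; group
  refine ⟨g⁻¹ * e⁻¹, H.mul_mem (H.inv_mem hgH) (H.inv_mem heH), ?_, ?_⟩
  · rw [h19]
    intro h
    have h20 : W c a = u a := congrArg (fun g : Perm Ω => g a) h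
    exact hcb (hwa.symm.trans h20)
  · rw [h19]
    exact hWu c hca hcb

end Cfsg.Agent.Lib.AB68
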