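import Cfsg.Agent.Lib.AB68_P8c
import Cfsg.Agent.Lib.AB68_P8k
import Cfsg.Agent.Lib.AB68_P9

/-! Piece P8c of S3252 (plan of helper68), final form (helper23). -/

set_option autoImplicit false
set_option linter.all false

namespace Cfsg.Agent.Lib.AB68

open Equiv

universe u
variable {Ω : Type u}

theorem case8c {G A F D : Subgroup (Perm Ω)} {u : Perm Ω} {a : Ω} {t : Perm Ω} {p : ℕ}
    {G' : Subgroup (Perm {x : Ω // t x = x})} (h : T8 G A F D u a t p G')
    (ht : ∃ x, (u * t) x = x) : False := by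
  haveI := h.fd.c.hfin
  have hp := h.hp.two_le
  have hp2 := h.hp2
  exact case8c_of h (fun k hk hkf c hc hct => central8 h k hk hkf c hc hct)
    (fun H h3 hsw hc u hu huf hu2 => lemV H h3 hsw hc u hu huf hu2 (by rw [h.hm]; omega)) ht

end Cfsg.Agent.Lib.AB68
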