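import Mathlib
import Cfsg.Agent.Lib.AB68_P3
import Cfsg.Agent.Lib.AB68_P4
import Cfsg.Agent.Lib.AB68_P5
import Cfsg.Agent.Lib.AB68_P5b
import Cfsg.Agent.Lib.AB68_P6
import Cfsg.Agent.Lib.AB68_P7
import Cfsg.Agent.Lib.AB68_P8a
import Cfsg.Agent.Lib.AB68_P8cF

set_option autoImplicit false

namespace Cfsg.Agent.Lib.AB68

open Equiv

universe u
variable {Ω : Type u}


theorem p10_unique {P : Type*} [Group P] [Finite P] {D : Subgroup P} (hD : IsCyclic D) {s t : P} (hs : s ∈ D)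
    (ht : t ∈ D) (hs2 : s * s = 1) (hs1 : s ≠ 1) (ht2 : t * t = 1) (ht1 : t ≠ 1) : s = t := by
  classical
  haveI : Fintype D := Fintype.ofFinite D
  have hcard : ∀ x : D, x * x = 1 → x ≠ 1 → orderOf x = 2 := by
    intro x hx hx1
    exact orderOf_eq_prime (by rw [pow_two]; exact hx) hx1
  have h1 := IsCyclic.card_pow_eq_one_le (α := D) (n := 2) (by norm_num)
  by_contra hne
  let s' : D := ⟨s, hs⟩
  let t' : D := ⟨t, ht⟩
  have e1 : s' ≠ 1 := fun h => hs1 (congrArg Subtype.val h)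
  have e2 : t' ≠ 1 := fun h => ht1 (congrArg Subtype.val h)
  have e3 : s' ≠ t' := fun h => hne (congrArg Subtype.val h)
  have hsub : ({1, s', t'} : Finset D) ⊆ Finset.univ.filter (fun x : D => x ^ 2 = 1) := by
    intro x hx
    simp only [Finset.mem_insert, Finset.mem_singleton] at hx
    rw [Finset.mem_filter]
    refine ⟨Finset.mem_univ _, ?_⟩
    rcases hx with rfl | rfl | rfl
    · exact one_pow 2
    · rw [pow_two]; exact Subtype.ext hs2
    · rw [pow_two]; exact Subtype.ext ht2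
  have h3 : ({1, s', t'} : Finset D).card = 3 := by
    rw [Finset.card_insert_of_notMem, Finset.card_insert_of_notMem, Finset.card_singleton]
    · simpa using e3
    · simp only [Finset.mem_insert, Finset.mem_singleton, not_or]
      exact ⟨e1.symm, e2.symm⟩
  have := Finset.card_le_card hsub
  omega

theorem thmP_aux (n : ℕ) : ∀ (Ω : Type u) (G A : Subgroup (Perm Ω)), Nat.card Ω = n → Cfg G A →
    Nat.card Ω = 2 ∨ ∃ p : ℕ, p.Prime ∧ p ≠ 2 ∧ Nat.card Ω = p + 1 ∧ Sh3 G ∧ Sw G := by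
  induction n using Nat.strong_induction_on with
  | _ n ih =>
  intro Ω G A hn c
  classical
  haveI := c.hfin
  haveI := c.hne
  by_cases h2 : Nat.card Ω = 2
  · exact Or.inl h2
  right
  obtain ⟨a⟩ := c.hne
  obtain ⟨u, F, D, h⟩ := exists_FD c h2 a
  obtain ⟨m, r, hm2, hmn, hm, hr, hrm⟩ := invol5 h
  have hau : a ≠ u a := fun e => h.huf a e.symm
  have hcnt := count5 G c.h2 a (u a) hau m r hm hr hrm hm2
  have huG : u ∈ G := c.hAG h.huA
  have huu : ∀ x, u (u x) = x := fun x => by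
    have := congrArg (fun f : Perm Ω => f x) h.hu2
    simpa using this
  have huinv : u⁻¹ = u := inv_eq_of_mul_eq_one_left h.hu2
  have hDm : ∀ d, d ∈ D ↔ (d ∈ G ∧ d a = a) ∧ d (u a) = u a := fun d => by rw [h.hD]; exact mem_st2
  let S : Set (Perm Ω) := {g | g ∈ G ∧ ∃ x, g x = x}
  have hj1 : Nat.card {g : Perm Ω // g ∈ G ∧ g * g = 1 ∧ (∃ x, g x = x) ∧ g a = u a} ≠ 0 := by
    intro h0
    rw [h0] at hcnt
    omega
  have key : ∀ g ∈ G, g * g = 1 → g a = u a → u * g ∈ D ∧ u * (u * g) * u = (u * g)⁻¹ := by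
    intro g hg hg2 hga
    have hginv : g⁻¹ = g := inv_eq_of_mul_eq_one_left hg2
    refine ⟨(hDm _).2 ⟨⟨G.mul_mem huG hg, ?_⟩, ?_⟩, ?_⟩
    · rw [Perm.mul_apply, hga, huu]
    · rw [Perm.mul_apply, ← hga]
      have : g (g a) = a := by
        have := congrArg (fun f : Perm Ω => f a) hg2
        simpa using this
      rw [this]
      rw [hga]
    · rw [mul_inv_rev, hginv, huinv, ← mul_assoc, h.hu2, one_mul]
  obtain ⟨⟨g0, hg0G, hg02, hg0f, hg0a⟩⟩ := (Nat.card_ne_zero.1 hj1).1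
  obtain ⟨hd0, hi0⟩ := key g0 hg0G hg02 hg0a
  have hSc : ∀ g ∈ S, ∀ d ∈ D, d * g * d⁻¹ ∈ S := by
    rintro g ⟨hg, x, hx⟩ d hd
    refine ⟨G.mul_mem (G.mul_mem ((hDm d).1 hd).1.1 hg) (G.inv_mem ((hDm d).1 hd).1.1), d x, ?_⟩
    rw [Perm.mul_apply, Perm.mul_apply, show d⁻¹ (d x) = x from d.symm_apply_apply x, hx]
  have huS : u ∉ S := fun ⟨_, x, hx⟩ => h.huf x hx
  have h0S : u * (u * g0) ∈ S := by
    rw [← mul_assoc, h.hu2, one_mul]
    exact ⟨hg0G, hg0f⟩
  obtain ⟨hc1, hc2, hc3⟩ := class6 u h.hu2 D h.hDc h.hDu S hSc huS (u * g0) hd0 hi0 h0S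
  have hj : Nat.card {g : Perm Ω // g ∈ G ∧ g * g = 1 ∧ (∃ x, g x = x) ∧ g a = u a} =
      Nat.card {d : Perm Ω // ∃ e ∈ D, d = e⁻¹ * (u * e * u)} := by
    rw [← hc2]
    apply Nat.card_congr
    refine ⟨fun g => ⟨u * g.1, (key g.1 g.2.1 g.2.2.1 g.2.2.2.2).1, (key g.1 g.2.1 g.2.2.1 g.2.2.2.2).2, ?_⟩,
      fun d => ⟨u * d.1, G.mul_mem huG ((hDm _).1 d.2.1).1.1, ?_, ?_, ?_⟩, ?_, ?_⟩
    · rw [← mul_assoc, h.hu2, one_mul]
      exact ⟨g.2.1, g.2.2.2.1⟩
    · rw [← mul_assoc, d.2.2.1, inv_mul_cancel]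
    · exact d.2.2.2.2
    · rw [Perm.mul_apply, ((hDm _).1 d.2.1).1.2]
    · intro g
      apply Subtype.ext
      show u * (u * g.1) = g.1
      rw [← mul_assoc, h.hu2, one_mul]
    · intro g
      apply Subtype.ext
      show u * (u * g.1) = g.1
      rw [← mul_assoc, h.hu2, one_mul]
  rw [hj] at hcnt
  by_cases hm22 : m = 2
  · subst hm22
    apply case7 h
    rw [hc1, hcnt]
    omega
  exfalso
  -- the involution t
  haveI := h.hDc
  obtain ⟨t, ht2, ht1⟩ : ∃ t : D, t * t = 1 ∧ t ≠ 1 := by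
    haveI : Fact (Nat.Prime 2) := ⟨Nat.prime_two⟩
    obtain ⟨t, ht⟩ := exists_prime_orderOf_dvd_card' (G := D) 2 (even_iff_two_dvd.1 h.hDe)
    refine ⟨t, ?_, ?_⟩
    · rw [← pow_two, ← ht]; exact pow_orderOf_eq_one t
    · intro h1
      rw [h1, orderOf_one] at ht
      omega
  have htD : t.1 ∈ D := t.2
  have ht2' : t.1 * t.1 = 1 := congrArg Subtype.val ht2
  have ht1' : t.1 ≠ 1 := fun e => ht1 (Subtype.ext e)
  have hta : t.1 a = a := ((hDm _).1 htD).1.2
  have htua : t.1 (u a) = u a := ((hDm _).1 htD).2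
  have htG : t.1 ∈ G := ((hDm _).1 htD).1.1
  obtain ⟨t, htt⟩ := t
  have htinv : t⁻¹ = t := inv_eq_of_mul_eq_one_left ht2'
  have hut : u * t * u = t := by
    apply p10_unique h.hDc (h.hDu t htt) htt _ _ ht2' ht1'
    · have : u * t * u * (u * t * u) = u * t * (u * u) * t * u := by group
      rw [this, h.hu2, mul_one, mul_assoc u t t]
      have e2 : t * t = 1 := ht2'
      rw [e2, mul_one, h.hu2]
    · intro h1
      apply ht1'
      have : t = u * (u * t * u) * u := by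
        have : u * (u * t * u) * u = (u * u) * t * (u * u) := by group
        rw [this, h.hu2, one_mul, mul_one]
      show t = 1
      rw [this, h1, mul_one, h.hu2]
  have htu : t * u = u * t := by
    calc t * u = (u * t * u) * u := by rw [hut]
      _ = u * t * (u * u) := by group
      _ = u * t := by rw [h.hu2, mul_one]
  have hmt : Nat.card {x : Ω // t x = x} = m := hm t htG ht2' ht1' ⟨a, hta⟩
  have hzt : ∀ x, x ∈ Subgroup.zpowers t ↔ x = 1 ∨ x = t := by
    intro x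
    constructor
    · rintro ⟨k, rfl⟩
      have e2 : t ^ (2 : ℤ) = 1 := by rw [zpow_two]; exact ht2'
      rcases Int.even_or_odd k with ⟨j, rfl⟩ | ⟨j, rfl⟩
      · left
        show t ^ (j + j) = 1
        rw [← two_mul, zpow_mul, e2, one_zpow]
      · right
        show t ^ (2 * j + 1) = t
        rw [zpow_add, zpow_mul, e2, one_zpow, one_mul, zpow_one]
    · rintro (rfl | rfl)
      · exact Subgroup.one_mem _
      · exact Subgroup.mem_zpowers _
  have hq : ∀ x, t x = x ↔ ∀ g ∈ Subgroup.zpowers t, g x = x := by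
    intro x
    constructor
    · intro hx g hg
      rcases (hzt g).1 hg with rfl | rfl
      · rfl
      · exact hx
    · intro hx
      exact hx t (Subgroup.mem_zpowers t)
  have hDc' : IsCyclic (st2 G a (u a)) := by rw [← h.hD]; exact h.hDc
  have hX : Subgroup.zpowers t ≤ st2 G a (u a) := by
    rw [← h.hD, Subgroup.zpowers_le]
    exact htt
  obtain ⟨-, G', A', hc', hG', hA'⟩ := P3 c u h.huA h.hu2 h.huf a hDc' (Subgroup.zpowers t) hX (fun x => t x = x) hq
  have hconj : ∀ g : Perm Ω, (∀ x, x ∈ Subgroup.zpowers t ↔ g * x * g⁻¹ ∈ Subgroup.zpowers t) ↔ g * t = t * g := by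
    intro g
    constructor
    · intro hg
      have h1 := (hg t).1 (Subgroup.mem_zpowers t)
      rcases (hzt _).1 h1 with h2 | h2
      · exfalso
        apply ht1'
        show t = 1
        have : g * t = g := by
          rw [mul_inv_eq_one] at h2
          exact h2
        exact mul_eq_left.1 this
      · rw [mul_inv_eq_iff_eq_mul] at h2
        exact h2
    · intro hg x
      have hgx : ∀ y, (y = 1 ∨ y = t) → g * y * g⁻¹ = y := by
        rintro y (rfl | rfl)
        · rw [mul_one, mul_inv_cancel]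
        · rw [hg, mul_assoc, mul_inv_cancel, mul_one]
      constructor
      · intro hx
        rw [hgx x ((hzt x).1 hx)]
        exact hx
      · intro hx
        have h3 := hgx _ ((hzt _).1 hx)
        have h4 : g * x * g⁻¹ = x := by
          have : g * (g * x * g⁻¹) * g⁻¹ = g * x * g⁻¹ := h3
          have h5 := mul_right_cancel this
          exact mul_left_cancel h5
        rw [h4] at hx
        exact hx
  rcases ih m (by omega) {x : Ω // t x = x} G' A' hmt hc' with h5 | ⟨p, hp, hp2, hpc, hs3, hsw⟩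
  · omega
  have T : T8 G A F D u a t p G' := by
    refine ⟨h, htt, ht2', ht1', htu, ?_, hp, hp2, hpc, ?_, hs3, hsw⟩
    · intro d hd hd2
      by_cases hd1 : d = 1
      · exact Or.inl hd1
      · exact Or.inr (p10_unique h.hDc hd htt hd2 hd1 ht2' ht1')
    · intro g'
      rw [hG']
      constructor
      · rintro ⟨g, hg, h1, h2⟩
        exact ⟨g, hg, (hconj g).1 h1, h2⟩
      · rintro ⟨g, hg, h1, h2⟩
        exact ⟨g, hg, (hconj g).2 h1, h2⟩
  have hmp : m = p + 1 := by omega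
  by_cases ht : ∃ e ∈ D, t = e⁻¹ * (u * e * u)
  · refine case8a T ?_ ht
    rw [hcnt, hmp, Nat.add_sub_cancel]
  · have h6 : u * t * u = t⁻¹ := by rw [hut, htinv]
    have h7 := (hc3 t htt h6).2 ht
    exact case8c T h7.2

theorem thmP {G A : Subgroup (Perm Ω)} (c : Cfg G A) :
    Nat.card Ω = 2 ∨ ∃ p : ℕ, p.Prime ∧ p ≠ 2 ∧ Nat.card Ω = p + 1 ∧ Sh3 G ∧ Sw G :=
  thmP_aux _ Ω G A rfl c

end Cfsg.Agent.Lib.AB68
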