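import Cfsg.Agent.Lib.AB68
import Cfsg.Agent.Lib.PSLOut
import Cfsg.Agent.S2602
import Cfsg.Agent.S0249
import Cfsg.Agent.S0219
import Cfsg.Agent.Lib.ClSLn
import Cfsg.Agent.Lib.ClSL2Syl

/-! S3252, pieces PF1, PF2 (helper35) -/

set_option autoImplicit false

namespace Cfsg.Agent.Lib.AB68

open Equiv

universe u

section
variable {S : Type*} [Group S] [Finite S]

theorem pf_conj_inj (hz : Subgroup.center S = ⊥) : Function.Injective (MulAut.conj : S →* MulAut S) := by
  rw [← MonoidHom.ker_eq_bot_iff, eq_bot_iff, ← hz]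
  intro x hx
  rw [MonoidHom.mem_ker] at hx
  rw [Subgroup.mem_center_iff]
  intro y
  have := congrArg (fun a : MulAut S => a y) hx
  simp only [MulAut.conj_apply, MulAut.one_apply] at this
  rw [mul_inv_eq_iff_eq_mul] at this
  exact this.symm

theorem pf_cent_inn (hz : Subgroup.center S = ⊥) : Subgroup.centralizer ((Cfsg.Inn S : Subgroup (MulAut S)) : Set (MulAut S)) = ⊥ := by
  rw [eq_bot_iff]
  intro a ha
  rw [Subgroup.mem_bot]
  apply MulEquiv.ext
  intro s
  rw [Subgroup.mem_centralizer_iff] at ha
  have h1 := ha (MulAut.conj s) ⟨s, rfl⟩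
  have h2 : a * MulAut.conj s * a⁻¹ = MulAut.conj (a s) := by
    apply MulEquiv.ext
    intro x
    simp [MulAut.conj_apply, MulAut.mul_apply]
  have h3 : MulAut.conj (a s) = MulAut.conj s := by
    rw [← h2, ← h1, mul_inv_cancel_right]
  exact pf_conj_inj hz h3
end

/-- the structure of `PGL₂(p)` -/
theorem pgl_key {X : Type u} [Group X] (h : IsPGL X) :
    ∃ (S : Type) (_ : Group S) (_ : Finite S) (_ : IsSimpleGroup S), ¬ Group.IsSolvable S ∧
      ∃ I : Subgroup X, I.Normal ∧ Nonempty (I ≃* S) ∧ I.index = 2 ∧ Subgroup.centralizer (I : Set X) = ⊥ ∧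
        Nat.card (MulAut S) = Nat.card X ∧ Even (Nat.card S) := by
  obtain ⟨F, _, _, p, hp, hp3, hF, ⟨e⟩⟩ := h
  haveI : Fact p.Prime := ⟨hp⟩
  have hF' : Fintype.card F = p ^ 1 := by rw [hF, pow_one]
  let S := Matrix.ProjectiveSpecialLinearGroup (Fin 2) F
  have hsq : ∃ a : F, a ≠ 0 ∧ a ^ 2 ≠ 1 := by
    by_contra hcon
    push Not at hcon
    classical
    have h1 : (Finset.univ : Finset F) ⊆ {0, 1, -1} := by
      intro a _
      by_cases h0 : a = 0
      · simp [h0]
      · have h2 : a ^ 2 = 1 := hcon a h0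
        rcases sq_eq_one_iff.1 h2 with h3 | h3 <;> simp [h3]
    have h2 := Finset.card_le_card h1
    have h3 : ({0, 1, -1} : Finset F).card ≤ 3 := Finset.card_le_three
    rw [Finset.card_univ, hF] at h2
    omega
  have hs : IsSimpleGroup S := ClSLn.isSimpleGroup_PSL (n := 2) le_rfl (fun _ => hsq)
  have hev : Even (Nat.card S) := by
    have h4 : Odd p := hp.odd_of_ne_two (by omega)
    have h5 : 2 * Nat.card S = p * (p ^ 2 - 1) := by
      have := ClSL2Syl.card_PSL2 (F := F) (by rw [hF]; exact h4)
      rw [hF] at this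
      exact this
    obtain ⟨k, hk⟩ := h4
    have h6 : p ^ 2 - 1 = 4 * (k * (k + 1)) := by
      rw [hk]
      have : (2 * k + 1) ^ 2 = 4 * (k * (k + 1)) + 1 := by ring
      omega
    rw [h6] at h5
    have h7 : Nat.card S = 2 * (p * (k * (k + 1))) := by
      have : 2 * Nat.card S = 2 * (2 * (p * (k * (k + 1)))) := by rw [h5]; ring
      omega
    exact even_iff_two_dvd.mpr ⟨_, h7⟩
  have hperf : commutator S = ⊤ := by
    have h1 : commutator (Matrix.SpecialLinearGroup (Fin 2) F) = ⊤ := ClSLn.commutator_SL_eq_top' (fun _ => hsq)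
    have h2 : (commutator (Matrix.SpecialLinearGroup (Fin 2) F)).map (QuotientGroup.mk' (Subgroup.center (Matrix.SpecialLinearGroup (Fin 2) F))) = commutator S := by
      rw [commutator_def, Subgroup.map_commutator, ← MonoidHom.range_eq_map, MonoidHom.range_eq_top.2 (QuotientGroup.mk'_surjective _)]
      rfl
    rw [← h2, h1, ← MonoidHom.range_eq_map, MonoidHom.range_eq_top.2 (QuotientGroup.mk'_surjective _)]
  have hnc : ¬ ∀ a b : S, a * b = b * a := by
    intro hc
    have h1 : commutator S = ⊥ := by
      rw [commutator_def, Subgroup.commutator_eq_bot_iff_le_centralizer]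
      intro x _
      rw [Subgroup.mem_centralizer_iff]
      intro y _
      exact hc y x
    rw [hperf] at h1
    haveI := hs.toNontrivial
    exact top_ne_bot h1
  have hns : ¬ Group.IsSolvable S := fun h => hnc (IsSimpleGroup.comm_iff_isSolvable.mpr h)
  have hz : Subgroup.center S = ⊥ := by
    rcases IsSimpleGroup.eq_bot_or_eq_top_of_normal (Subgroup.center S) inferInstance with h | h
    · exact h
    · exfalso
      apply hnc
      intro a b
      have : b ∈ Subgroup.center S := by rw [h]; trivial
      exact Subgroup.mem_center_iff.mp this a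
  -- the isomorphism with `Aut S`
  let d : GL (Fin 2) F →* MulAut S := PSLAut.dg
  have hd : Function.Surjective d := by
    intro θ
    obtain ⟨g, σ, h⟩ := PSLAut.aut_psl_two θ
    have hσ : σ = 1 := by
      have h1 : Nat.card (F ≃+* F) = 1 := FFAut.card_aut hF'
      haveI := (Nat.card_eq_one_iff_unique.mp h1).1
      exact Subsingleton.elim _ _
    exact ⟨g, by rw [h, hσ, map_one, mul_one]⟩
  have hk : d.ker = Subgroup.center (GL (Fin 2) F) := by
    ext g
    rw [MonoidHom.mem_ker]
    constructor
    · intro h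
      exact (PSLAut.dg_fd_eq_one (n := 2) le_rfl (g := g) (σ := 1) (by rw [map_one, mul_one]; exact h)).2
    · exact fun h => PSLAut.dg_of_mem_center h
  let e2 : (GL (Fin 2) F ⧸ Subgroup.center (GL (Fin 2) F)) ≃* MulAut S :=
    (QuotientGroup.quotientMulEquivOfEq hk.symm).trans (QuotientGroup.quotientKerEquivOfSurjective d hd)
  let E : X ≃* MulAut S := e.trans e2
  have hidx : (Cfsg.Inn S).index = 2 := by
    obtain ⟨φ, h1, -, h2⟩ := Cfsg.Agent.S2602.result (F := F) (p := p) (f := 1) le_rfl hF' (by rw [pow_one]; omega)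
    have h3 : φ.ker = ⊤ := by
      rw [eq_top_iff]
      intro x _
      rw [MonoidHom.mem_ker]
      exact Subsingleton.elim (α := ZMod 1) _ _
    rw [h3, Subgroup.card_top] at h2
    have h4 : Odd p := hp.odd_of_ne_two (by omega)
    have h5 : Nat.gcd 2 (p ^ 1 - 1) = 2 := by
      rw [pow_one]
      apply Nat.gcd_eq_left
      obtain ⟨k, hk⟩ := h4
      exact ⟨k, by omega⟩
    rw [h5] at h2
    exact h2
  refine ⟨S, inferInstance, inferInstance, hs, hns, (Cfsg.Inn S).comap E.toMonoidHom, ?_, ?_, ?_, ?_, ?_, hev⟩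
  · infer_instance
  · have hb : Function.Bijective (E.toMonoidHom.subgroupComap (Cfsg.Inn S)) := by
      constructor
      · intro a b hab
        exact Subtype.ext (E.injective (congrArg Subtype.val hab))
      · intro y
        obtain ⟨x, hx⟩ := E.surjective (y : MulAut S)
        exact ⟨⟨x, by show E x ∈ Cfsg.Inn S; rw [hx]; exact y.2⟩, Subtype.ext hx⟩
    exact ⟨(MulEquiv.ofBijective _ hb).trans (MonoidHom.ofInjective (pf_conj_inj hz)).symm⟩
  · rw [Subgroup.index_comap_of_surjective _ E.surjective, hidx]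
  · rw [eq_bot_iff]
    intro x hx
    have h1 : E x ∈ Subgroup.centralizer ((Cfsg.Inn S : Subgroup (MulAut S)) : Set (MulAut S)) := by
      rw [Subgroup.mem_centralizer_iff]
      intro y hy
      obtain ⟨z, rfl⟩ := E.surjective y
      rw [Subgroup.mem_centralizer_iff] at hx
      rw [← map_mul, ← map_mul, hx z hy]
    rw [pf_cent_inn hz, Subgroup.mem_bot] at h1
    rw [Subgroup.mem_bot]
    exact E.injective (by rw [h1, map_one])
  · exact (Nat.card_congr E.toEquiv).symm


theorem pf_perfect_of_simple {S : Type*} [Group S] [IsSimpleGroup S] (hns : ¬ Group.IsSolvable S) : commutator S = ⊤ := by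
  rcases IsSimpleGroup.eq_bot_or_eq_top_of_normal (commutator S) inferInstance with h | h
  · exfalso
    apply hns
    apply IsSimpleGroup.comm_iff_isSolvable.mp
    intro a b
    have h1 : a * b * a⁻¹ * b⁻¹ ∈ commutator S := Subgroup.commutator_mem_commutator (Subgroup.mem_top a) (Subgroup.mem_top b)
    rw [h, Subgroup.mem_bot] at h1
    exact mul_inv_eq_iff_eq_mul.mp (mul_inv_eq_one.mp h1)
  · exact h

/-- nontrivial normal subgroups contain the simple one -/
theorem pf_le_of_ne_bot {X : Type u} [Group X] {S : Type} [Group S] [IsSimpleGroup S] {I : Subgroup X} (hI : I.Normal) (e : I ≃* S)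
    (hc : Subgroup.centralizer (I : Set X) = ⊥) (L : Subgroup X) (hL : L.Normal) (hL1 : L ≠ ⊥) : I ≤ L := by
  haveI : Nontrivial I := e.toEquiv.nontrivial
  haveI : IsSimpleGroup I := IsSimpleGroup.isSimpleGroup_of_surjective e.symm.toMonoidHom e.symm.surjective
  rcases IsSimpleGroup.eq_bot_or_eq_top_of_normal (L.subgroupOf I) inferInstance with h | h
  · exfalso
    apply hL1
    rw [eq_bot_iff, ← hc]
    intro x hx
    rw [Subgroup.mem_centralizer_iff]
    intro y hy
    have h1 : y * x * y⁻¹ * x⁻¹ ∈ L ⊓ I := by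
      constructor
      · exact L.mul_mem (hL.conj_mem x hx y) (L.inv_mem hx)
      · have : y * x * y⁻¹ * x⁻¹ = y * (x * y⁻¹ * x⁻¹) := by group
        rw [this]
        exact I.mul_mem hy (hI.conj_mem _ (I.inv_mem hy) x)
    have h2 : (⟨y * x * y⁻¹ * x⁻¹, h1.2⟩ : I) ∈ L.subgroupOf I := h1.1
    rw [h, Subgroup.mem_bot] at h2
    have h3 : y * x * y⁻¹ * x⁻¹ = 1 := congrArg Subtype.val h2
    have h4 : y * x * y⁻¹ = x := mul_inv_eq_one.mp h3
    exact mul_inv_eq_iff_eq_mul.mp h4
  · rwa [Subgroup.subgroupOf_eq_top] at h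

theorem pgl_facts {X : Type u} [Group X] (h : IsPGL X) :
    Finite X ∧ ¬ Group.IsSolvable X ∧ (∀ L : Subgroup X, L.Normal → Group.IsSolvable L → L = ⊥) ∧
      (∀ L : Subgroup X, L.Normal → L ≠ ⊥ → L.index ≤ 2) ∧ (∀ S : Sylow 2 X, ¬ IsCyclic S) ∧
      Even (Nat.card X) := by
  obtain ⟨S, _, _, hs, hns, I, hI, ⟨e⟩, hidx, hc, hcard, hevS⟩ := pgl_key h
  haveI : Finite I := Finite.of_equiv _ e.symm.toEquiv
  have hmul := I.card_mul_index
  have hpos : 0 < Nat.card I := Nat.card_pos
  have hfin : Finite X := Nat.finite_of_card_ne_zero (by rw [← hmul, hidx]; omega)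
  have hnsI : ¬ Group.IsSolvable I := fun h => hns (Group.isSolvable_of_surjective (f := e.toMonoidHom) e.surjective)
  have hsub : ∀ L : Subgroup X, I ≤ L → ¬ Group.IsSolvable L := by
    intro L hL hs
    exact hnsI (Group.isSolvable_of_isSolvable_injective (f := Subgroup.inclusion hL) (Subgroup.inclusion_injective hL))
  refine ⟨hfin, ?_, ?_, ?_, ?_, ?_⟩
  · intro hs
    exact hnsI (Group.isSolvable_of_isSolvable_injective (f := I.subtype) I.subtype_injective)
  · intro L hL hs
    by_contra h1
    exact hsub L (pf_le_of_ne_bot hI e hc L hL h1) hs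
  · intro L hL h1
    have h2 := Subgroup.index_dvd_of_le (pf_le_of_ne_bot hI e hc L hL h1)
    rw [hidx] at h2
    exact Nat.le_of_dvd (by norm_num) h2
  · intro P hP
    haveI : Fact (Nat.Prime 2) := ⟨Nat.prime_two⟩
    haveI : Nontrivial I := e.toEquiv.nontrivial
    haveI : IsSimpleGroup I := IsSimpleGroup.isSimpleGroup_of_surjective e.symm.toMonoidHom e.symm.surjective
    obtain ⟨Q⟩ : Nonempty (Sylow 2 I) := inferInstance
    obtain ⟨P', hP'⟩ := (Q.isPGroup'.map I.subtype).exists_le_sylow
    have hc1 : IsCyclic (P' : Subgroup X) := by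
      haveI := hP
      exact isCyclic_of_surjective (P.equiv P') (P.equiv P').surjective
    have hc2 : IsCyclic (Q : Subgroup I) := by
      haveI := hc1
      have hle : ∀ x : (Q : Subgroup I), ((x : I) : X) ∈ (P' : Subgroup X) := fun x => hP' ⟨x, x.2, rfl⟩
      let f : (Q : Subgroup I) →* (P' : Subgroup X) := (I.subtype.comp (Q : Subgroup I).subtype).codRestrict _ hle
      have hf : Function.Injective f := fun a b hab => Subtype.ext (Subtype.ext (congrArg (fun z : (P' : Subgroup X) => (z : X)) hab))
      exact isCyclic_of_injective f hf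
    have hevI : Even (Nat.card I) := by rw [Nat.card_congr e.toEquiv]; exact hevS
    obtain ⟨H, hH⟩ := Cfsg.Agent.S0219.result hevI Q hc2
    haveI : H.Normal := Subgroup.normal_of_index_eq_two hH
    rcases IsSimpleGroup.eq_bot_or_eq_top_of_normal H inferInstance with h | h
    · rw [h, Subgroup.index_bot] at hH
      apply hnsI
      have h3 : IsPGroup 2 I := IsPGroup.of_card (n := 1) (by rw [hH, pow_one])
      have := h3.isNilpotent
      infer_instance
    · rw [h, Subgroup.index_top] at hH
      omega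
  · rw [← hmul, hidx]; exact even_iff_two_dvd.mpr (Dvd.intro_left _ rfl)

theorem pgl_aut {X : Type u} [Group X] (h : IsPGL X) (L : Subgroup X) (hL : L.Normal) (hL1 : L ≠ ⊥) :
    commutator L ≠ ⊥ ∧ Nat.card (MulAut (commutator L)) ≤ Nat.card X := by
  obtain ⟨S, _, _, hs, hns, I, hI, ⟨e⟩, hidx, hc, hcard, hevS⟩ := pgl_key h
  have hIL := pf_le_of_ne_bot hI e hc L hL hL1
  haveI : Nontrivial I := e.toEquiv.nontrivial
  haveI : IsSimpleGroup I := IsSimpleGroup.isSimpleGroup_of_surjective e.symm.toMonoidHom e.symm.surjective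
  have hnsI : ¬ Group.IsSolvable I := fun h => hns (Group.isSolvable_of_surjective (f := e.toMonoidHom) e.surjective)
  have hperf : commutator I = ⊤ := pf_perfect_of_simple hnsI
  have key : commutator L = I.subgroupOf L := by
    apply le_antisymm
    · haveI : (I.subgroupOf L).Normal := inferInstance
      have h1 : (I.subgroupOf L).index ≤ 2 := by
        have h2 := Subgroup.relIndex_mul_index hIL
        rw [hidx] at h2
        exact Nat.le_of_dvd (by norm_num) ⟨_, h2.symm⟩
      have h2 : (I.subgroupOf L).index ≠ 0 := by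
        intro h0
        have h2 := Subgroup.relIndex_mul_index hIL
        rw [hidx] at h2
        change (I.subgroupOf L).index * _ = _ at h2
        rw [h0] at h2
        omega
      have hcom : ∀ a b : L ⧸ (I.subgroupOf L), a * b = b * a := by
        haveI : Finite (L ⧸ (I.subgroupOf L)) := Nat.finite_of_card_ne_zero h2
        have h3 : Nat.card (L ⧸ (I.subgroupOf L)) = 1 ∨ Nat.card (L ⧸ (I.subgroupOf L)) = 2 := by
          change (I.subgroupOf L).index = 1 ∨ (I.subgroupOf L).index = 2
          omega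
        have h4 : IsCyclic (L ⧸ (I.subgroupOf L)) := by
          rcases h3 with h3 | h3
          · haveI : Subsingleton (L ⧸ (I.subgroupOf L)) := (Nat.card_eq_one_iff_unique.1 h3).1
            infer_instance
          · haveI : Fact (Nat.Prime 2) := ⟨Nat.prime_two⟩
            exact isCyclic_of_prime_card h3
        intro a b
        letI := IsCyclic.commGroup (α := L ⧸ (I.subgroupOf L))
        exact mul_comm a b
      rw [commutator_def, Subgroup.commutator_le]
      intro a _ b _
      rw [← QuotientGroup.eq_one_iff]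
      rw [commutatorElement_def]
      rw [QuotientGroup.mk_mul, QuotientGroup.mk_mul, QuotientGroup.mk_mul, hcom (a : L ⧸ (I.subgroupOf L)) b, QuotientGroup.mk_inv,
        QuotientGroup.mk_inv]
      group
    · intro x hx
      have hx1 : (x : X) ∈ I := hx
      have hx2 : (⟨x, hx1⟩ : I) ∈ commutator I := by rw [hperf]; trivial
      have h3 : (commutator I).map (Subgroup.inclusion hIL) ≤ commutator L := by
        rw [commutator_def, Subgroup.map_commutator, commutator_def]
        exact Subgroup.commutator_mono le_top le_top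
      exact h3 ⟨⟨x, hx1⟩, hx2, rfl⟩
  have e2 : I.subgroupOf L ≃* I := Subgroup.subgroupOfEquivOfLe hIL
  have e3 : commutator L ≃* S := (MulEquiv.subgroupCongr key).trans (e2.trans e)
  constructor
  · intro h1
    haveI : Subsingleton (commutator L) := by
      rw [h1]; infer_instance
    haveI : Subsingleton S := e3.symm.toEquiv.injective.subsingleton
    exact not_subsingleton S inferInstance
  · rw [← hcard]
    exact le_of_eq (Nat.card_congr (MulAut.congr e3).toEquiv)

end Cfsg.Agent.Lib.AB68
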