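import Mathlib
import Cfsg.Agent.Lib.AB68

/-!
# S3252, piece Q1 (helper7)
-/

set_option autoImplicit false

namespace Cfsg.Agent.Lib.AB68

universe u
variable {G : Type u} [Group G] [Finite G]

theorem Q1_solvable_inf (N C : Subgroup G) (hC : C = Subgroup.centralizer (N : Set G)) :
    Group.IsSolvable ↥(N ⊓ C) := by
  apply Group.isSolvable_of_comm
  rintro ⟨a, ha⟩ ⟨b, hb⟩
  apply Subtype.ext
  show a * b = b * a
  have hb' : b ∈ Subgroup.centralizer (N : Set G) := hC ▸ hb.2
  exact Subgroup.mem_centralizer_iff.1 hb' a ha.1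

theorem Q1_solvable_of {N K C : Subgroup G} [C.Normal] (hNC : N ⊓ C = ⊥) (hK : K ≤ N) (L : Subgroup (G ⧸ C))
    (hL : Group.IsSolvable L) (hKL : ∀ k ∈ K, (QuotientGroup.mk' C) k ∈ L) : Group.IsSolvable K := by
  let f : K →* L := ((QuotientGroup.mk' C).comp K.subtype).codRestrict L (fun k => hKL k k.2)
  have hf : Function.Injective f := by
    rw [injective_iff_map_eq_one]
    rintro ⟨k, hk⟩ h
    have h1 : (QuotientGroup.mk' C) k = 1 := congrArg Subtype.val h
    have h2 : k ∈ C := by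
      rwa [← MonoidHom.mem_ker, QuotientGroup.ker_mk'] at h1
    have h3 : k ∈ N ⊓ C := ⟨hK hk, h2⟩
    rw [hNC, Subgroup.mem_bot] at h3
    exact Subtype.ext h3
  exact Group.isSolvable_of_isSolvable_injective hf

theorem Q1 (hR : ∀ N : Subgroup G, N.Normal → Group.IsSolvable N → N = ⊥) (N : Subgroup G) (hN : N.Normal)
    (hN1 : N ≠ ⊥) (C : Subgroup G) [C.Normal] (hC : C = Subgroup.centralizer (N : Set G)) :
    ¬ Group.IsSolvable (G ⧸ C) ∧ ∀ L : Subgroup (G ⧸ C), L.Normal → Group.IsSolvable L → L = ⊥ := by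
  have hNC : N ⊓ C = ⊥ := hR _ inferInstance (Q1_solvable_inf N C hC)
  constructor
  · intro hs
    apply hN1
    apply hR N hN
    exact Q1_solvable_of hNC le_rfl ⊤ inferInstance (fun k _ => Subgroup.mem_top _)
  · intro L hLn hLs
    obtain ⟨L', hL'⟩ : ∃ L' : Subgroup G, L' = L.comap (QuotientGroup.mk' C) := ⟨_, rfl⟩
    have hL'n : L'.Normal := by rw [hL']; infer_instance
    have h1 : N ⊓ L' = ⊥ := by
      apply hR _ inferInstance
      refine Q1_solvable_of hNC inf_le_left L hLs (fun k hk => ?_)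
      have := hk.2
      rw [hL'] at this
      exact this
    have h2 : L' ≤ C := by
      rw [hC]
      intro g hg
      rw [Subgroup.mem_centralizer_iff]
      intro x hx
      have h3 : x * g * x⁻¹ * g⁻¹ ∈ N ⊓ L' := by
        refine ⟨?_, ?_⟩
        · have : g * x⁻¹ * g⁻¹ ∈ N := hN.conj_mem _ (N.inv_mem hx) g
          have h4 : x * (g * x⁻¹ * g⁻¹) ∈ N := mul_mem hx this
          have h5 : x * (g * x⁻¹ * g⁻¹) = x * g * x⁻¹ * g⁻¹ := by group
          rwa [h5] at h4
        · have : x * g * x⁻¹ ∈ L' := hL'n.conj_mem _ hg x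
          exact L'.mul_mem this (L'.inv_mem hg)
      rw [h1, Subgroup.mem_bot] at h3
      have h6 : x * g = (x * g * x⁻¹ * g⁻¹) * (g * x) := by group
      rw [h6, h3, one_mul]
    rw [eq_bot_iff]
    intro y hy
    obtain ⟨g, rfl⟩ := QuotientGroup.mk'_surjective C y
    have h7 : g ∈ L' := by rw [hL']; exact hy
    have h8 := h2 h7
    rw [Subgroup.mem_bot, ← MonoidHom.mem_ker, QuotientGroup.ker_mk']
    exact h8

end Cfsg.Agent.Lib.AB68
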