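import Cfsg.Agent.Lib.AB68
import Cfsg.Agent.Lib.SectRank

/-! S3252, piece Q2 (helper66). -/

set_option autoImplicit false

namespace Cfsg.Agent.Lib.AB68

open Subgroup Cfsg.Agent.Lib.SubgroupTools
open scoped Pointwise

namespace H66

universe u
variable {G : Type u} [Group G] [Finite G]

theorem card_two_pow (S : Sylow 2 G) (H : Subgroup G) (h : H ≤ S) : ∃ k : ℕ, Nat.card H = 2 ^ k := by
  have : Fact (Nat.Prime 2) := ⟨Nat.prime_two⟩
  exact IsPGroup.iff_card.1 (S.2.to_le h)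

theorem odd_ind (S : Sylow 2 G) (N : Subgroup G) [N.Normal] :
    ∃ m : ℕ, Odd m ∧ Nat.card N = m * Nat.card ((S : Subgroup G) ⊓ N : Subgroup G) := by
  have : Fact (Nat.Prime 2) := ⟨Nat.prime_two⟩
  have h1 := card_sup_mul_card_inf (N := N) (H := (S : Subgroup G)) (by rw [normalizer_eq_top]; exact le_top)
  have h2 := card_mul_relIndex_of_le (le_sup_right : (S : Subgroup G) ≤ N ⊔ (S : Subgroup G))
  have h3 : (S : Subgroup G).relIndex (N ⊔ (S : Subgroup G)) ∣ (S : Subgroup G).index :=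
    ⟨_, (relIndex_mul_index le_sup_right).symm⟩
  have h4 : ¬ 2 ∣ (S : Subgroup G).relIndex (N ⊔ (S : Subgroup G)) := fun h => S.not_dvd_index (h.trans h3)
  refine ⟨(S : Subgroup G).relIndex (N ⊔ (S : Subgroup G)), Nat.odd_iff.2 (by omega), ?_⟩
  rw [← h2] at h1
  have hpos : 0 < Nat.card (S : Subgroup G) := Nat.card_pos
  rw [inf_comm]
  apply Nat.eq_of_mul_eq_mul_right hpos
  rw [← h1]; ring

theorem two_part {a b m n : ℕ} (hm : Odd m) (hn : Odd n) (ha : ∃ k, a = 2 ^ k) (hb : ∃ k, b = 2 ^ k)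
    (h : m * a = n * b) : a = b := by
  obtain ⟨k, rfl⟩ := ha
  obtain ⟨l, rfl⟩ := hb
  have c1 : Nat.Coprime (2 ^ k) n := Nat.Coprime.pow_left k (Nat.coprime_two_left.2 hn)
  have c2 : Nat.Coprime (2 ^ l) m := Nat.Coprime.pow_left l (Nat.coprime_two_left.2 hm)
  apply Nat.dvd_antisymm
  · exact c1.dvd_of_dvd_mul_left (by rw [← h]; exact dvd_mul_left _ _)
  · exact c2.dvd_of_dvd_mul_left (by rw [h]; exact dvd_mul_left _ _)

theorem inf_sup_eq (S : Sylow 2 G) (C₁ C₂ : Subgroup G) [C₁.Normal] [C₂.Normal] :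
    ((S : Subgroup G) ⊓ C₁) ⊔ ((S : Subgroup G) ⊓ C₂) = (S : Subgroup G) ⊓ (C₁ ⊔ C₂) := by
  have hle : ((S : Subgroup G) ⊓ C₁) ⊔ ((S : Subgroup G) ⊓ C₂) ≤ (S : Subgroup G) ⊓ (C₁ ⊔ C₂) :=
    sup_le (inf_le_inf le_rfl le_sup_left) (inf_le_inf le_rfl le_sup_right)
  apply eq_of_le_of_card_ge hle
  obtain ⟨m1, hm1, e1⟩ := odd_ind S C₁
  obtain ⟨m2, hm2, e2⟩ := odd_ind S C₂
  obtain ⟨m3, hm3, e3⟩ := odd_ind S (C₁ ⊓ C₂)
  obtain ⟨m4, hm4, e4⟩ := odd_ind S (C₁ ⊔ C₂)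
  have k1 := card_sup_mul_card_inf (N := C₁) (H := C₂) (by rw [normalizer_eq_top]; exact le_top)
  have hn : (S : Subgroup G) ⊓ C₂ ≤ normalizer (((S : Subgroup G) ⊓ C₁ : Subgroup G) : Set G) := by
    intro g hgg
    have hg' : g ∈ (S : Subgroup G) := (mem_inf.1 hgg).1
    rw [mem_normalizer_iff]
    intro h
    constructor
    · intro hh
      obtain ⟨h1, h2⟩ := mem_inf.1 hh
      exact mem_inf.2 ⟨mul_mem (mul_mem hg' h1) (inv_mem hg'), Normal.conj_mem inferInstance h h2 g⟩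
    · intro hh
      obtain ⟨h1, h2⟩ := mem_inf.1 hh
      have e : h = g⁻¹ * (g * h * g⁻¹) * g := by group
      rw [e]
      refine mem_inf.2 ⟨mul_mem (mul_mem (inv_mem hg') h1) hg', ?_⟩
      have := Normal.conj_mem (inferInstance : C₁.Normal) _ h2 g⁻¹
      rwa [inv_inv] at this
  have k2 := card_sup_mul_card_inf (N := (S : Subgroup G) ⊓ C₁) (H := (S : Subgroup G) ⊓ C₂) hn
  have e5 : ((S : Subgroup G) ⊓ C₁) ⊓ ((S : Subgroup G) ⊓ C₂) = (S : Subgroup G) ⊓ (C₁ ⊓ C₂) := by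
    rw [inf_inf_inf_comm, inf_idem]
  rw [e5] at k2
  set c := Nat.card ((S : Subgroup G) ⊓ (C₁ ⊓ C₂) : Subgroup G) with hc
  have hcpos : 0 < c := Nat.card_pos
  have key : Nat.card ((S : Subgroup G) ⊓ (C₁ ⊔ C₂) : Subgroup G) * c =
      Nat.card ((S : Subgroup G) ⊓ C₁ : Subgroup G) * Nat.card ((S : Subgroup G) ⊓ C₂ : Subgroup G) := by
    obtain ⟨j1, g1⟩ := card_two_pow S _ (inf_le_left : (S : Subgroup G) ⊓ C₁ ≤ S)
    obtain ⟨j2, g2⟩ := card_two_pow S _ (inf_le_left : (S : Subgroup G) ⊓ C₂ ≤ S)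
    obtain ⟨j3, g3⟩ := card_two_pow S _ (inf_le_left : (S : Subgroup G) ⊓ (C₁ ⊓ C₂) ≤ S)
    obtain ⟨j4, g4⟩ := card_two_pow S _ (inf_le_left : (S : Subgroup G) ⊓ (C₁ ⊔ C₂) ≤ S)
    apply two_part (hm4.mul hm3) (hm1.mul hm2)
    · exact ⟨j4 + j3, by rw [pow_add, g4, hc, g3]⟩
    · exact ⟨j1 + j2, by rw [pow_add, g1, g2]⟩
    · rw [e1, e2, e3, e4] at k1
      calc m4 * m3 * (Nat.card ((S : Subgroup G) ⊓ (C₁ ⊔ C₂) : Subgroup G) * c)
          = m4 * Nat.card ((S : Subgroup G) ⊓ (C₁ ⊔ C₂) : Subgroup G) * (m3 * c) := by ring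
        _ = _ := k1
        _ = _ := by ring
  rw [← key] at k2
  exact (Nat.eq_of_mul_eq_mul_right hcpos k2).ge

/-- Sylow factorization -/
theorem exists_sylow_AB (A B : Subgroup G) (hAB : ∀ g : G, ∃ a ∈ A, ∃ b ∈ B, g = a * b) :
    ∃ S : Sylow 2 G, ∀ s ∈ S, ∃ a ∈ A, ∃ b ∈ B, a ∈ S ∧ b ∈ S ∧ s = a * b := by
  have : Fact (Nat.Prime 2) := ⟨Nat.prime_two⟩
  obtain ⟨PA⟩ : Nonempty (Sylow 2 A) := inferInstance
  obtain ⟨PB⟩ : Nonempty (Sylow 2 B) := inferInstance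
  obtain ⟨P1, hP1⟩ := (PA.2.map A.subtype).exists_le_sylow
  obtain ⟨P2, hP2⟩ := (PB.2.map B.subtype).exists_le_sylow
  obtain ⟨g, hg⟩ := MulAction.exists_smul_eq G P1 P2
  obtain ⟨a, ha, b, hb, hgab⟩ := hAB g⁻¹
  have hg' : g = b⁻¹ * a⁻¹ := by rw [← mul_inv_rev, ← hgab, inv_inv]
  set S : Sylow 2 G := a⁻¹ • P1 with hS
  have hS2 : S = b • P2 := by
    rw [← hg, hg', hS, smul_smul]; congr 1; group
  -- A1
  set A1 : Subgroup G := ((PA : Subgroup A).map A.subtype).map (MulAut.conj a⁻¹).toMonoidHom with hA1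
  set B1 : Subgroup G := ((PB : Subgroup B).map B.subtype).map (MulAut.conj b).toMonoidHom with hB1
  have hA1S : A1 ≤ S := by
    rintro _ ⟨x, hx, rfl⟩
    have : x ∈ P1 := hP1 hx
    rw [hS]
    exact Subgroup.smul_mem_pointwise_smul x _ _ this
  have hB1S : B1 ≤ S := by
    rintro _ ⟨x, hx, rfl⟩
    have : x ∈ P2 := hP2 hx
    rw [hS2]
    exact Subgroup.smul_mem_pointwise_smul x _ _ this
  have hA1A : A1 ≤ A := by
    rintro _ ⟨_, ⟨x, hx, rfl⟩, rfl⟩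
    show a⁻¹ * (x : G) * a⁻¹⁻¹ ∈ A
    exact mul_mem (mul_mem (inv_mem ha) x.2) (inv_mem (inv_mem ha))
  have hB1B : B1 ≤ B := by
    rintro _ ⟨_, ⟨x, hx, rfl⟩, rfl⟩
    show b * (x : G) * b⁻¹ ∈ B
    exact mul_mem (mul_mem hb x.2) (inv_mem hb)
  have cA1 : Nat.card A1 = Nat.card PA := by
    rw [hA1, card_map_of_injective (MulEquiv.injective _), card_map_of_injective A.subtype_injective]
  have cB1 : Nat.card B1 = Nat.card PB := by
    rw [hB1, card_map_of_injective (MulEquiv.injective _), card_map_of_injective B.subtype_injective]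
  have iA := PA.card_mul_index
  have iB := PB.card_mul_index
  have iS := S.card_mul_index
  have oA : Odd (PA : Subgroup A).index := Nat.odd_iff.2 (by have := PA.not_dvd_index; omega)
  have oB : Odd (PB : Subgroup B).index := Nat.odd_iff.2 (by have := PB.not_dvd_index; omega)
  have q1 := card_mul_set A B
  have q2 := card_mul_set A1 B1
  have hGAB : Nat.card ((A : Set G) * (B : Set G) : Set G) = Nat.card G := by
    have : ((A : Set G) * (B : Set G)) = Set.univ := by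
      ext x
      simp only [Set.mem_univ, iff_true]
      obtain ⟨a, ha, b, hb, h⟩ := hAB x
      exact ⟨a, ha, b, hb, h.symm⟩
    rw [this]; exact Nat.card_congr (Equiv.Set.univ G)
  rw [hGAB] at q1
  obtain ⟨ε, hε⟩ : Nat.card (A1 ⊓ B1 : Subgroup G) ∣ Nat.card (A ⊓ B : Subgroup G) :=
    card_dvd_of_le (inf_le_inf hA1A hB1B)
  have hpos : 0 < Nat.card (A1 ⊓ B1 : Subgroup G) := Nat.card_pos
  have key : (PA : Subgroup A).index * (PB : Subgroup B).index * Nat.card ((A1 : Set G) * (B1 : Set G) : Set G) =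
      (S : Subgroup G).index * Nat.card S * ε := by
    apply Nat.eq_of_mul_eq_mul_right hpos
    calc _ = (PA : Subgroup A).index * (PB : Subgroup B).index * (Nat.card ((A1 : Set G) * (B1 : Set G) : Set G) *
          Nat.card (A1 ⊓ B1 : Subgroup G)) := by ring
      _ = (PA : Subgroup A).index * (PB : Subgroup B).index * (Nat.card PA * Nat.card PB) := by rw [q2, cA1, cB1]
      _ = (Nat.card PA * (PA : Subgroup A).index) * (Nat.card PB * (PB : Subgroup B).index) := by ring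
      _ = Nat.card A * Nat.card B := by rw [iA, iB]
      _ = Nat.card G * Nat.card (A ⊓ B : Subgroup G) := q1.symm
      _ = (Nat.card S * (S : Subgroup G).index) * (Nat.card (A1 ⊓ B1 : Subgroup G) * ε) := by rw [iS, hε]
      _ = _ := by ring
  obtain ⟨k, hk⟩ := card_two_pow S _ (le_refl (S : Subgroup G))
  have hdvd : Nat.card S ∣ Nat.card ((A1 : Set G) * (B1 : Set G) : Set G) := by
    have c1 : Nat.Coprime (Nat.card S) ((PA : Subgroup A).index * (PB : Subgroup B).index) := by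
      rw [hk]
      exact Nat.Coprime.pow_left k (Nat.coprime_two_left.2 (oA.mul oB))
    apply c1.dvd_of_dvd_mul_left
    rw [key]
    exact ⟨(S : Subgroup G).index * ε, by ring⟩
  have hsub : ((A1 : Set G) * (B1 : Set G)) ⊆ ((S : Subgroup G) : Set G) := by
    rintro _ ⟨x, hx, y, hy, rfl⟩
    exact mul_mem (hA1S hx) (hB1S hy)
  have hposAB : 0 < Nat.card ((A1 : Set G) * (B1 : Set G) : Set G) := by
    have : Nonempty ((A1 : Set G) * (B1 : Set G) : Set G) := ⟨⟨1, 1, one_mem _, 1, one_mem _, one_mul 1⟩⟩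
    exact Nat.card_pos
  have heq : ((A1 : Set G) * (B1 : Set G)) = ((S : Subgroup G) : Set G) := by
    apply Set.eq_of_subset_of_ncard_le hsub
    exact Nat.le_of_dvd hposAB hdvd
  refine ⟨S, fun s hs => ?_⟩
  have : s ∈ ((A1 : Set G) * (B1 : Set G)) := by rw [heq]; exact hs
  obtain ⟨x, hx, y, hy, rfl⟩ := this
  exact ⟨x, hA1A hx, y, hB1B hy, hA1S hx, hB1S hy, rfl⟩

/-- a quotient of exponent two of a product of two cyclic groups -/
theorem index_le_four {T : Type*} [Group T] [Finite T] (x y : T) (h : ∀ s : T, ∃ i j : ℤ, s = x ^ i * y ^ j) (K : Subgroup T)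
    (hsq : ∀ s : T, s ^ 2 ∈ K) (hcm : ∀ s t : T, s * t * s⁻¹ * t⁻¹ ∈ K) : K.index ≤ 4 := by
  have hK : K.Normal := ⟨fun n hn g => by
    have := mul_mem (hcm g n) hn
    rwa [inv_mul_cancel_right] at this⟩
  have hz : ∀ (q : T ⧸ K) (i : ℤ), q ^ i = 1 ∨ q ^ i = q := by
    intro q i
    obtain ⟨s, rfl⟩ := QuotientGroup.mk_surjective q
    have h2 : ((s : T ⧸ K)) ^ (2 : ℤ) = 1 := by
      rw [zpow_ofNat, ← QuotientGroup.mk_pow, QuotientGroup.eq_one_iff]; exact hsq s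
    rcases Int.even_or_odd' i with ⟨k, rfl | rfl⟩
    · left; rw [zpow_mul, h2, one_zpow]
    · right; rw [zpow_add, zpow_mul, h2, one_zpow, one_mul, zpow_one]
  let f : Bool × Bool → T ⧸ K := fun p => (if p.1 then (x : T ⧸ K) else 1) * (if p.2 then (y : T ⧸ K) else 1)
  have hf : Function.Surjective f := by
    intro q
    obtain ⟨s, rfl⟩ := QuotientGroup.mk_surjective q
    obtain ⟨i, j, rfl⟩ := h s
    rw [QuotientGroup.mk_mul, QuotientGroup.mk_zpow, QuotientGroup.mk_zpow]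
    rcases hz (x : T ⧸ K) i with h1 | h1 <;> rcases hz (y : T ⧸ K) j with h2 | h2 <;> rw [h1, h2]
    · exact ⟨(false, false), by simp [f]⟩
    · exact ⟨(false, true), by simp [f]⟩
    · exact ⟨(true, false), by simp [f]⟩
    · exact ⟨(true, true), by simp [f]⟩
  have := Nat.card_le_card_of_surjective f hf
  rw [Nat.card_prod, show Nat.card Bool = 2 from by simp] at this
  exact this

theorem exists_gen {H : Type*} [Group H] [Finite H] (S : Sylow 2 H) (A : Subgroup H) (hA : IsZGroup A) :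
    ∃ x ∈ A, x ∈ S ∧ ∀ a ∈ A, a ∈ S → ∃ i : ℤ, a = x ^ i := by
  have h2 : Fact (Nat.Prime 2) := ⟨Nat.prime_two⟩
  have hp : IsPGroup 2 ((S : Subgroup H).subgroupOf A) := by
    intro a
    obtain ⟨k, hk⟩ := S.2 ⟨(a : A), a.2⟩
    refine ⟨k, ?_⟩
    apply Subtype.ext; apply Subtype.ext
    have := congrArg Subtype.val hk
    simpa using this
  obtain ⟨P, hP⟩ := hp.exists_le_sylow
  have hc : IsCyclic P := hA.isZGroup 2 Nat.prime_two P
  have hc2 : IsCyclic ((S : Subgroup H).subgroupOf A) :=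
    isCyclic_of_injective (Subgroup.inclusion hP) (Subgroup.inclusion_injective hP)
  obtain ⟨g, hg⟩ := hc2.exists_generator
  refine ⟨(g : A), (g : A).2, g.2, ?_⟩
  intro a ha haS
  obtain ⟨i, hi⟩ := mem_zpowers_iff.1 (hg ⟨⟨a, ha⟩, haS⟩)
  refine ⟨i, ?_⟩
  have := congrArg (fun z : (S : Subgroup H).subgroupOf A => ((z : A) : H)) hi
  simpa using this.symm

end H66

universe u
variable {G : Type u} [Group G] [Finite G]

theorem Q2 (A B : Subgroup G) (hA : IsCyclic A) (hZ : IsZGroup B)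
    (hAB : ∀ g : G, ∃ a ∈ A, ∃ b ∈ B, g = a * b) (C₁ C₂ : Subgroup G) [C₁.Normal] [C₂.Normal]
    (h12 : (C₁ ⊔ C₂).index ≤ 2) (h1 : ∀ S : Sylow 2 (G ⧸ C₁), ¬ IsCyclic S)
    (h2 : ∀ S : Sylow 2 (G ⧸ C₂), ¬ IsCyclic S) : False := by
  have hp2 : Fact (Nat.Prime 2) := ⟨Nat.prime_two⟩
  obtain ⟨S, hS⟩ := H66.exists_sylow_AB A B hAB
  have hAZ : IsZGroup A := ⟨fun p hp P => inferInstance⟩
  obtain ⟨x, hxA, hxS, hx⟩ := H66.exists_gen S A hAZ
  obtain ⟨y, hyB, hyS, hy⟩ := H66.exists_gen S B hZ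
  have hgen : ∀ s : S, ∃ i j : ℤ, s = (⟨x, hxS⟩ : S) ^ i * (⟨y, hyS⟩ : S) ^ j := by
    rintro ⟨s, hs⟩
    obtain ⟨a, ha, b, hb, haS, hbS, hsab⟩ := hS s hs
    obtain ⟨i, hi⟩ := hx a ha haS
    obtain ⟨j, hj⟩ := hy b hb hbS
    refine ⟨i, j, Subtype.ext ?_⟩
    show s = x ^ i * y ^ j
    rw [hsab, hi, hj]
  -- the subgroups of index 4
  have hK : ∀ (C : Subgroup G) [C.Normal], (∀ T : Sylow 2 (G ⧸ C), ¬ IsCyclic T) →
      ∃ K : Subgroup S, K.index = 4 ∧ (∀ s : S, s ^ 2 ∈ K) ∧ (∀ s t : S, s * t * s⁻¹ * t⁻¹ ∈ K) ∧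
        ∀ s : S, (s : G) ∈ C → s ∈ K := by
    intro C _ hC
    set T : Sylow 2 (G ⧸ C) := S.mapSurjective (QuotientGroup.mk'_surjective C) with hT
    have hTS : (T : Subgroup (G ⧸ C)) = (S : Subgroup G).map (QuotientGroup.mk' C) := rfl
    let F : S →* T := ((QuotientGroup.mk' C).comp (S : Subgroup G).subtype).codRestrict (T : Subgroup (G ⧸ C))
      (fun s => by rw [hTS]; exact mem_map_of_mem _ s.2)
    have hF : Function.Surjective F := by
      rintro ⟨t, ht⟩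
      rw [hTS] at ht
      obtain ⟨s, hs, rfl⟩ := ht
      exact ⟨⟨s, hs⟩, rfl⟩
    obtain ⟨N, hN, hsq, hcm, -⟩ := Cfsg.Agent.Lib.SectRank.exists_index_sq T.2 (hC T)
    refine ⟨N.comap F, ?_, ?_, ?_, ?_⟩
    · rw [index_comap_of_surjective _ hF, hN]; norm_num
    · intro s
      rw [mem_comap, map_pow]; exact hsq _
    · intro s t
      rw [mem_comap, map_mul, map_mul, map_mul, map_inv, map_inv]; exact hcm _ _
    · intro s hs
      rw [mem_comap]
      have : F s = 1 := by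
        apply Subtype.ext
        exact (QuotientGroup.eq_one_iff _).2 hs
      rw [this]; exact one_mem _
  obtain ⟨K1, i1, s1, c1, k1⟩ := hK C₁ h1
  obtain ⟨K2, i2, s2, c2, k2⟩ := hK C₂ h2
  have h4 : (K1 ⊓ K2).index ≤ 4 := H66.index_le_four _ _ hgen (K1 ⊓ K2) (fun s => ⟨s1 s, s2 s⟩) (fun s t => ⟨c1 s t, c2 s t⟩)
  have e1 : K1 ⊓ K2 = K1 := by
    have h5 := relIndex_mul_index (inf_le_left : K1 ⊓ K2 ≤ K1)
    rw [i1] at h5
    have h6 : (K1 ⊓ K2).relIndex K1 ≤ 1 := by omega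
    have h7 : (K1 ⊓ K2).relIndex K1 ≠ 0 := (index_ne_zero_of_finite : ((K1 ⊓ K2).subgroupOf K1).index ≠ 0)
    have h8 : (K1 ⊓ K2).relIndex K1 = 1 := by omega
    exact le_antisymm inf_le_left (relIndex_eq_one.1 h8)
  have e2 : K1 ⊓ K2 = K2 := by
    have h5 := relIndex_mul_index (inf_le_right : K1 ⊓ K2 ≤ K2)
    rw [i2] at h5
    have h6 : (K1 ⊓ K2).relIndex K2 ≤ 1 := by omega
    have h7 : (K1 ⊓ K2).relIndex K2 ≠ 0 := (index_ne_zero_of_finite : ((K1 ⊓ K2).subgroupOf K2).index ≠ 0)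
    have h8 : (K1 ⊓ K2).relIndex K2 = 1 := by omega
    exact le_antisymm inf_le_right (relIndex_eq_one.1 h8)
  have e3 : K2 = K1 := e2.symm.trans e1
  have hW : (C₁ ⊔ C₂).subgroupOf (S : Subgroup G) ≤ K1 := by
    intro s hs
    rw [mem_subgroupOf] at hs
    have hs2 : (s : G) ∈ ((S : Subgroup G) ⊓ C₁) ⊔ ((S : Subgroup G) ⊓ C₂) := by
      rw [H66.inf_sup_eq]; exact mem_inf.2 ⟨s.2, hs⟩
    have hle : ((S : Subgroup G) ⊓ C₁) ⊔ ((S : Subgroup G) ⊓ C₂) ≤ K1.map (S : Subgroup G).subtype := by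
      refine sup_le ?_ ?_
      · intro z hz
        obtain ⟨z1, z2⟩ := mem_inf.1 hz
        exact ⟨⟨z, z1⟩, k1 ⟨z, z1⟩ z2, rfl⟩
      · intro z hz
        obtain ⟨z1, z2⟩ := mem_inf.1 hz
        exact ⟨⟨z, z1⟩, e3 ▸ k2 ⟨z, z1⟩ z2, rfl⟩
    obtain ⟨t, ht, hts⟩ := hle hs2
    have : t = s := Subtype.ext hts
    rwa [this] at ht
  have h5 := relIndex_mul_index hW
  rw [i1] at h5
  have h6 : ((C₁ ⊔ C₂).subgroupOf (S : Subgroup G)).index ≤ 2 := by
    refine le_trans ?_ h12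
    exact Nat.le_of_dvd (Nat.pos_of_ne_zero index_ne_zero_of_finite) (relIndex_dvd_index_of_normal _ _)
  have h7 : ((C₁ ⊔ C₂).subgroupOf (S : Subgroup G)).index ≠ 0 := index_ne_zero_of_finite
  have h8 : ((C₁ ⊔ C₂).subgroupOf (S : Subgroup G)).relIndex K1 ≠ 0 :=
    (index_ne_zero_of_finite : ((((C₁ ⊔ C₂).subgroupOf (S : Subgroup G))).subgroupOf K1).index ≠ 0)
  have h9 : 1 ≤ ((C₁ ⊔ C₂).subgroupOf (S : Subgroup G)).relIndex K1 := Nat.one_le_iff_ne_zero.2 h8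
  nlinarith

end Cfsg.Agent.Lib.AB68
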