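import Mathlib
import Cfsg.Agent.Lib.AB68
import Cfsg.Agent.Lib.NCyc5

/-! Products of a cyclic group and a Z-group: piece Q4 (the core case), relative to Q1, Q2 and the facts on `PGL₂`. -/

set_option autoImplicit false

namespace Cfsg.Agent.Lib.AB68

universe u

theorem Q4x_congr {X Y : Type*} [Group X] [Group Y] (e : X ≃* Y) (h : IsPGL X) : IsPGL Y := by
  obtain ⟨F, i1, i2, p, hp, h3, hc, ⟨f⟩⟩ := h
  exact ⟨F, i1, i2, p, hp, h3, hc, ⟨e.symm.trans f⟩⟩

/-- passing to the quotient by a trivial radical -/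
theorem Q4x_bot {X : Type*} [Group X] (R : Subgroup X) [R.Normal] (hR : R = ⊥) (h : IsPGL (X ⧸ R)) : IsPGL X := by
  subst hR
  exact Q4x_congr (QuotientGroup.quotientBot (G := X)) h

variable {G : Type u} [Group G] [Finite G]

theorem Q4_aux
    (pgl_facts : ∀ {X : Type u} [Group X], IsPGL X →
      Finite X ∧ ¬ Group.IsSolvable X ∧ (∀ L : Subgroup X, L.Normal → Group.IsSolvable L → L = ⊥) ∧
      (∀ L : Subgroup X, L.Normal → L ≠ ⊥ → L.index ≤ 2) ∧ (∀ S : Sylow 2 X, ¬ IsCyclic S) ∧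
      Even (Nat.card X))
    (pgl_aut : ∀ {X : Type u} [Group X], IsPGL X → ∀ L : Subgroup X, L.Normal → L ≠ ⊥ →
      commutator L ≠ ⊥ ∧ Nat.card (MulAut (commutator L)) ≤ Nat.card X)
    (Q1 : (∀ N : Subgroup G, N.Normal → Group.IsSolvable N → N = ⊥) → ∀ N : Subgroup G, N.Normal →
      N ≠ ⊥ → ∀ (C : Subgroup G) [C.Normal], C = Subgroup.centralizer (N : Set G) →
      ¬ Group.IsSolvable (G ⧸ C) ∧ ∀ L : Subgroup (G ⧸ C), L.Normal → Group.IsSolvable L → L = ⊥)
    (Q2 : ∀ A B : Subgroup G, IsCyclic A → IsZGroup B → (∀ g : G, ∃ a ∈ A, ∃ b ∈ B, g = a * b) →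
      ∀ (C₁ C₂ : Subgroup G) [C₁.Normal] [C₂.Normal], (C₁ ⊔ C₂).index ≤ 2 →
      (∀ S : Sylow 2 (G ⧸ C₁), ¬ IsCyclic S) → (∀ S : Sylow 2 (G ⧸ C₂), ¬ IsCyclic S) → False)
    (hR : ∀ N : Subgroup G, N.Normal → Group.IsSolvable N → N = ⊥)
    (A B : Subgroup G) (hA : IsCyclic A) (hZ : IsZGroup B)
    (hAB : ∀ g : G, ∃ a ∈ A, ∃ b ∈ B, g = a * b) (M : Subgroup G) (hM : IsCoatom M) (hBM : B ≤ M)
    (hK : M.normalCore ≠ ⊥)
    (hMI : ¬ Group.IsSolvable M → ∃ R : Subgroup M, ∃ _ : R.Normal, Group.IsSolvable R ∧ IsPGL (M ⧸ R))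
    (hQI : ∀ (C : Subgroup G) [C.Normal], C ≠ ⊥ → ¬ Group.IsSolvable (G ⧸ C) →
      ∃ R : Subgroup (G ⧸ C), ∃ _ : R.Normal, Group.IsSolvable R ∧ IsPGL ((G ⧸ C) ⧸ R)) : False := by
  classical
  -- the core `K`
  obtain ⟨K, hKdef⟩ : ∃ K : Subgroup G, K = M.normalCore := ⟨_, rfl⟩
  have hKn : K.Normal := by rw [hKdef]; infer_instance
  have hKM : K ≤ M := by rw [hKdef]; exact Subgroup.normalCore_le M
  rw [← hKdef] at hK
  have hKns : ¬ Group.IsSolvable K := fun h => hK (hR K hKn h)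
  have hMns : ¬ Group.IsSolvable M := fun h => hKns
    (Group.isSolvable_of_isSolvable_injective (f := Subgroup.inclusion hKM) (Subgroup.inclusion_injective hKM))
  obtain ⟨R, hRn, hRs, hX⟩ := hMI hMns
  have hKR : ∀ L : Subgroup K, L.Normal → Group.IsSolvable L → L = ⊥ := NCyc.hs_sub hKn hR
  -- the map `K → M ⧸ R` is injective
  let f : K →* M ⧸ R := (QuotientGroup.mk' R).comp (Subgroup.inclusion hKM)
  have hf : Function.Injective f := by
    rw [← MonoidHom.ker_eq_bot_iff]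
    refine hKR _ inferInstance ?_
    let g : f.ker →* R :=
      { toFun := fun x => ⟨Subgroup.inclusion hKM x.1, by
          have h1 : f x.1 = 1 := x.2
          exact (QuotientGroup.eq_one_iff _).1 h1⟩
        map_one' := by apply Subtype.ext; rfl
        map_mul' := fun x y => by apply Subtype.ext; rfl }
    refine Group.isSolvable_of_isSolvable_injective (f := g) ?_
    intro x y hxy
    apply Subtype.ext
    apply Subgroup.inclusion_injective hKM
    exact congrArg Subtype.val hxy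
  have hfn : f.range.Normal := by
    refine ⟨?_⟩
    rintro _ ⟨k, rfl⟩ q
    obtain ⟨m, rfl⟩ := QuotientGroup.mk'_surjective R q
    refine ⟨⟨(m : G) * k * (m : G)⁻¹, hKn.conj_mem _ k.2 _⟩, ?_⟩
    show QuotientGroup.mk' R _ = QuotientGroup.mk' R m * QuotientGroup.mk' R _ * (QuotientGroup.mk' R m)⁻¹
    rw [← map_mul, ← map_inv, ← map_mul]
    rfl
  have hf1 : f.range ≠ ⊥ := by
    intro h
    apply hKns
    have h1 : ∀ k : K, k = 1 := fun k => hf (by
      have : f k ∈ f.range := ⟨k, rfl⟩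
      rw [h, Subgroup.mem_bot] at this
      rw [this, map_one])
    have : Subsingleton K := ⟨fun a b => by rw [h1 a, h1 b]⟩
    infer_instance
  obtain ⟨hc1, hc2⟩ := pgl_aut hX f.range hfn hf1
  -- `N = [K, K]`
  let e : K ≃* f.range := MonoidHom.ofInjective hf
  have hemap : (commutator K).map e.toMonoidHom = commutator f.range := by
    have hr : e.toMonoidHom.range = ⊤ := MonoidHom.range_eq_top.2 e.surjective
    rw [commutator_def, Subgroup.map_commutator, commutator_def, ← MonoidHom.range_eq_map, hr]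
  let e1 : commutator K ≃* commutator f.range :=
    (e.subgroupMap (commutator K)).trans (MulEquiv.subgroupCongr hemap)
  obtain ⟨N, hNdef⟩ : ∃ N : Subgroup G, N = (commutator K).map K.subtype := ⟨_, rfl⟩
  let e2 : commutator K ≃* N :=
    ((commutator K).equivMapOfInjective K.subtype K.subtype_injective).trans
      (MulEquiv.subgroupCongr hNdef.symm)
  have hNn : N.Normal := by
    rw [hNdef, commutator_def, Subgroup.map_commutator, ← MonoidHom.range_eq_map, K.range_subtype]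
    infer_instance
  have hN1 : N ≠ ⊥ := by
    intro h
    apply hc1
    have h1 : ∀ x : commutator f.range, x = 1 := fun x => by
      have h6 : ∀ z : G, z ∈ N → z = 1 := fun z hz => by
        rw [h, Subgroup.mem_bot] at hz
        exact hz
      have h2 : (e2 (e1.symm x) : G) = 1 := h6 _ (e2 (e1.symm x)).2
      have h3 : e2 (e1.symm x) = 1 := Subtype.ext h2
      have h4 : e1.symm x = 1 := by
        have := e2.injective (h3.trans (map_one e2).symm)
        exact this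
      have := e1.symm.injective (h4.trans (map_one e1.symm).symm)
      exact this
    rw [eq_bot_iff]
    intro x hx
    rw [Subgroup.mem_bot]
    exact congrArg Subtype.val (h1 ⟨x, hx⟩)
  have hNaut : Nat.card (MulAut N) < Nat.card G := by
    have h1 : Nat.card (MulAut N) = Nat.card (MulAut (commutator f.range)) :=
      Nat.card_congr (MulAut.congr (e2.symm.trans e1)).toEquiv
    have h2 : Nat.card (M ⧸ R) ≤ Nat.card M := by
      have := Subgroup.card_eq_card_quotient_mul_card_subgroup R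
      rw [this]
      exact Nat.le_mul_of_pos_right _ Nat.card_pos
    have h3 : Nat.card M < Nat.card G := by
      refine lt_of_le_of_ne (Subgroup.card_le_card_group M) ?_
      intro h
      exact hM.1 (Subgroup.eq_top_of_card_eq M h)
    omega
  -- `C₁ = C_G(N)`
  obtain ⟨C₁, hC₁⟩ : ∃ C : Subgroup G, C = Subgroup.centralizer (N : Set G) := ⟨_, rfl⟩
  have hC₁n : C₁.Normal := by rw [hC₁]; infer_instance
  have hC₁1 : C₁ ≠ ⊥ := by
    intro h
    have hinj : Function.Injective (MulAut.conjNormal (H := N) : G →* MulAut N) := by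
      rw [← MonoidHom.ker_eq_bot_iff, eq_bot_iff, ← h, hC₁]
      intro g hg
      rw [Subgroup.mem_centralizer_iff]
      intro n hn
      have h1 : (MulAut.conjNormal g : MulAut N) ⟨n, hn⟩ = ⟨n, hn⟩ := by
        have h2 : (MulAut.conjNormal g : MulAut N) = 1 := hg
        rw [h2]; rfl
      have h3 : g * n * g⁻¹ = n := by
        have := congrArg Subtype.val h1
        rwa [MulAut.conjNormal_apply] at this
      calc n * g = (g * n * g⁻¹) * g := by rw [h3]
        _ = g * n := by group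
    have := Nat.card_le_card_of_injective _ hinj
    omega
  -- `C₂ = C_G(C₁)`
  obtain ⟨C₂, hC₂⟩ : ∃ C : Subgroup G, C = Subgroup.centralizer (C₁ : Set G) := ⟨_, rfl⟩
  have hC₂n : C₂.Normal := by rw [hC₂]; infer_instance
  have hNC₂ : N ≤ C₂ := by
    rw [hC₂, Subgroup.le_centralizer_iff, hC₁]
  have hC₂1 : C₂ ≠ ⊥ := fun h => hN1 (le_bot_iff.1 (h ▸ hNC₂))
  obtain ⟨hq1, hr1⟩ := Q1 hR N hNn hN1 C₁ hC₁
  obtain ⟨hq2, hr2⟩ := Q1 hR C₁ hC₁n hC₁1 C₂ hC₂
  obtain ⟨R₁, hR₁n, hR₁s, hP₁⟩ := hQI C₁ hC₁1 hq1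
  obtain ⟨R₂, hR₂n, hR₂s, hP₂⟩ := hQI C₂ hC₂1 hq2
  have hX₁ : IsPGL (G ⧸ C₁) := Q4x_bot R₁ (hr1 R₁ hR₁n hR₁s) hP₁
  have hX₂ : IsPGL (G ⧸ C₂) := Q4x_bot R₂ (hr2 R₂ hR₂n hR₂s) hP₂
  -- `C₁ ⊓ C₂ = 1`
  have hZ1 : C₁ ⊓ C₂ = ⊥ := by
    refine hR _ inferInstance ?_
    have hz : ∀ z ∈ C₂, ∀ x ∈ C₁, x * z = z * x := by
      intro z hz
      rw [hC₂, Subgroup.mem_centralizer_iff] at hz
      exact hz
    have hcomm : ∀ x y : (C₁ ⊓ C₂ : Subgroup G), x * y = y * x := by
      intro x y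
      apply Subtype.ext
      exact hz y y.2.2 x x.2.1
    exact Group.isSolvable_of_comm hcomm
  have hnle : (C₁.map (QuotientGroup.mk' C₂)) ≠ ⊥ := by
    intro h
    apply hC₁1
    rw [Subgroup.map_eq_bot_iff, QuotientGroup.ker_mk'] at h
    rw [← hZ1, eq_comm, inf_eq_left]
    exact h
  have hidx := (pgl_facts hX₂).2.2.2.1 (C₁.map (QuotientGroup.mk' C₂))
    (Subgroup.Normal.map hC₁n _ (QuotientGroup.mk'_surjective C₂)) hnle
  have hidx2 : (C₁ ⊔ C₂).index ≤ 2 := by
    have h1 : (C₁.map (QuotientGroup.mk' C₂)).index = (C₁ ⊔ C₂).index := by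
      rw [Subgroup.index_map, QuotientGroup.ker_mk', MonoidHom.range_eq_top.2 (QuotientGroup.mk'_surjective C₂),
        Subgroup.index_top, mul_one]
    rw [← h1]; exact hidx
  exact Q2 A B hA hZ hAB C₁ C₂ hidx2 (pgl_facts hX₁).2.2.2.2.1 (pgl_facts hX₂).2.2.2.2.1

end Cfsg.Agent.Lib.AB68
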