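import Mathlib
import Cfsg.Agent.Lib.AB68

set_option autoImplicit false
set_option linter.unusedSectionVars false
set_option linter.unusedSimpArgs false
set_option linter.unusedVariables false

/-! Schur's argument for groups with a cyclic complement to a maximal subgroup. -/

namespace Cfsg.Agent.Lib.AB68

universe u

theorem spSumPow {R ι : Type*} [Ring R] (p : ℕ) [Fact p.Prime] [CharP R p] (s : Finset ι) (f : ι → R)
    (hc : ∀ i j, i ∈ s → j ∈ s → Commute (f i) (f j)) : (∑ i ∈ s, f i) ^ p = ∑ i ∈ s, f i ^ p := by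
  classical
  induction s using Finset.induction_on with
  | empty => simp [(Fact.out : p.Prime).ne_zero]
  | insert a s ha ih =>
    rw [Finset.sum_insert ha, Finset.sum_insert ha, add_pow_char_of_commute p, ih]
    · intro i j hi hj
      exact hc i j (Finset.mem_insert_of_mem hi) (Finset.mem_insert_of_mem hj)
    · apply Commute.sum_right
      intro i hi
      exact hc a i (Finset.mem_insert_self a s) (Finset.mem_insert_of_mem hi)

section R
variable {G : Type u} [Group G]

/-- left translation of functions -/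
noncomputable def spLt (p : ℕ) (g : G) : Module.End (ZMod p) (G → ZMod p) :=
  LinearMap.funLeft (ZMod p) (ZMod p) (fun h => g⁻¹ * h)

theorem spLt_apply (p : ℕ) (g : G) (f : G → ZMod p) (h : G) : spLt p g f h = f (g⁻¹ * h) := rfl

theorem spLt_mul (p : ℕ) (g g' : G) : spLt p (g * g') = spLt p g * spLt p g' := by
  apply LinearMap.ext
  intro f
  funext h
  rw [Module.End.mul_apply, spLt_apply, spLt_apply, spLt_apply, mul_inv_rev, mul_assoc]

theorem spLt_one (p : ℕ) : spLt p (1 : G) = 1 := by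
  apply LinearMap.ext
  intro f
  funext h
  rw [spLt_apply, inv_one, one_mul]; rfl

theorem spLt_pow (p : ℕ) (g : G) (n : ℕ) : spLt p (g ^ n) = spLt p g ^ n := by
  induction n with
  | zero => rw [pow_zero, pow_zero, spLt_one]
  | succ n ih => rw [pow_succ, pow_succ, spLt_mul, ih]

variable [Finite G]

/-- the key congruence -/
theorem spKey [DecidableEq G] (A B : Subgroup G) (hA : IsCyclic A) (hB : IsCoatom B)
    (hAB : ∀ g : G, ∃ a ∈ A, ∃ b ∈ B, g = a * b) (hAB1 : A ⊓ B = ⊥) (p : ℕ) (hp : p.Prime)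
    (hpA : p ∣ Nat.card A) (x : G) (T : Finset G)
    (hT : ∀ a, a ∈ T ↔ a ∈ A ∧ ∃ b ∈ B, ∃ b' ∈ B, a = b * x * b') (a₀ : G) (ha₀ : a₀ ∈ A) (h1 : a₀ ≠ 1) :
    p ∣ (T.filter (fun a => a ^ p = a₀)).card := by
  classical
  have : Fact p.Prime := ⟨hp⟩
  have hcomm : ∀ a ∈ A, ∀ a' ∈ A, a * a' = a' * a := by
    intro a ha a' ha'
    have := IsCyclic.isMulCommutative (α := A)
    exact congrArg Subtype.val (mul_comm' (⟨a, ha⟩ : A) ⟨a', ha'⟩)
  have huniq : ∀ a ∈ A, ∀ a' ∈ A, a⁻¹ * a' ∈ B → a = a' := by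
    intro a ha a' ha' h
    have : a⁻¹ * a' ∈ A ⊓ B := Subgroup.mem_inf.2 ⟨A.mul_mem (A.inv_mem ha) ha', h⟩
    rw [hAB1, Subgroup.mem_bot] at this
    exact inv_mul_eq_one.1 this
  choose pr hprA hpr using hAB
  have hprB : ∀ g, (pr g)⁻¹ * g ∈ B := by
    intro g
    obtain ⟨b, hb, hg⟩ := hpr g
    have : (pr g)⁻¹ * g = b := by rw [inv_mul_eq_iff_eq_mul]; exact hg
    rwa [this]
  -- the translation of T
  have hTpr : ∀ b ∈ B, ∀ a ∈ T, pr (b * a) ∈ T := by
    intro b hb a ha
    rw [hT] at ha ⊢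
    obtain ⟨ha, c, hc, c', hc', e⟩ := ha
    refine ⟨hprA _, b * c, mul_mem hb hc, c' * ((pr (b * a))⁻¹ * (b * a))⁻¹, mul_mem hc' (inv_mem (hprB _)), ?_⟩
    have : b * c * x * (c' * ((pr (b * a))⁻¹ * (b * a))⁻¹) = b * (c * x * c') * ((pr (b * a))⁻¹ * (b * a))⁻¹ := by group
    rw [this, ← e]
    group
  have hprpr : ∀ b ∈ B, ∀ a ∈ T, pr (b⁻¹ * pr (b * a)) = a := by
    intro b hb a ha
    have haA := ((hT a).1 ha).1
    apply huniq _ (hprA _) _ haA
    have h2 := hprB (b⁻¹ * pr (b * a))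
    have h3 := hprB (b * a)
    have : (pr (b⁻¹ * pr (b * a)))⁻¹ * a = ((pr (b⁻¹ * pr (b * a)))⁻¹ * (b⁻¹ * pr (b * a))) * ((pr (b * a))⁻¹ * (b * a)) := by
      group
    rw [this]
    exact mul_mem h2 h3
  -- invariance
  have hinv : ∀ f : G → ZMod p, (∀ b ∈ B, spLt p b f = f) → ∀ b ∈ B,
      spLt p b ((∑ a ∈ T, spLt p a) f) = (∑ a ∈ T, spLt p a) f := by
    intro f hf b hb
    rw [LinearMap.sum_apply, map_sum]
    apply Finset.sum_nbij' (fun a => pr (b * a)) (fun a => pr (b⁻¹ * a))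
    · intro a ha; exact hTpr b hb a ha
    · intro a ha; exact hTpr b⁻¹ (inv_mem hb) a ha
    · intro a ha; exact hprpr b hb a ha
    · intro a ha
      have := hprpr b⁻¹ (inv_mem hb) a ha
      rwa [inv_inv] at this
    · intro a ha
      rw [← Module.End.mul_apply, ← spLt_mul]
      have : b * a = pr (b * a) * ((pr (b * a))⁻¹ * (b * a)) := by group
      rw [this, spLt_mul, Module.End.mul_apply, hf _ (hprB _)]
      simp
  obtain ⟨f₀, hf₀⟩ : ∃ f₀ : G → ZMod p, f₀ = fun g => if g ∈ B then 1 else 0 := ⟨_, rfl⟩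
  have hf₀B : ∀ b ∈ B, spLt p b f₀ = f₀ := by
    intro b hb
    funext g
    rw [spLt_apply, hf₀]
    show (if b⁻¹ * g ∈ B then (1 : ZMod p) else 0) = if g ∈ B then 1 else 0
    rw [if_congr (Subgroup.mul_mem_cancel_left B (inv_mem hb)) rfl rfl]
  have hinvk : ∀ k : ℕ, ∀ b ∈ B, spLt p b (((∑ a ∈ T, spLt p a) ^ k) f₀) = ((∑ a ∈ T, spLt p a) ^ k) f₀ := by
    intro k
    induction k with
    | zero => intro b hb; rw [pow_zero, Module.End.one_apply]; exact hf₀B b hb
    | succ k ih =>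
      intro b hb
      rw [pow_succ', Module.End.mul_apply]
      exact hinv _ ih b hb
  have : Nontrivial (Module.End (ZMod p) (G → ZMod p)) := inferInstance
  have : CharP (Module.End (ZMod p) (G → ZMod p)) p :=
    charP_of_injective_algebraMap (algebraMap (ZMod p) (Module.End (ZMod p) (G → ZMod p))).injective p
  have hpow : (∑ a ∈ T, spLt p a) ^ p = ∑ a ∈ T, spLt p (a ^ p) := by
    rw [spSumPow]
    · exact Finset.sum_congr rfl fun a _ => (spLt_pow p a p).symm
    · intro a a' ha ha'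
      show spLt p a * spLt p a' = spLt p a' * spLt p a
      rw [← spLt_mul, ← spLt_mul, hcomm a ((hT a).1 ha).1 a' ((hT a').1 ha').1]
  obtain ⟨F, hF⟩ : ∃ F, F = ((∑ a ∈ T, spLt p a) ^ p) f₀ := ⟨_, rfl⟩
  have hFB : ∀ b ∈ B, ∀ g, F (b * g) = F g := by
    intro b hb g
    have := congrFun (hinvk p b⁻¹ (inv_mem hb)) g
    rw [spLt_apply, inv_inv, ← hF] at this
    exact this
  have hFs : ∀ g, F g = ∑ a ∈ T, f₀ ((a ^ p)⁻¹ * g) := by
    intro g
    rw [hF, hpow, LinearMap.sum_apply, Finset.sum_apply]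
    rfl
  have hFr : ∀ b ∈ B, ∀ g, F (g * b) = F g := by
    intro b hb g
    rw [hFs, hFs]
    apply Finset.sum_congr rfl
    intro a _
    rw [hf₀, ← mul_assoc]
    show (if (a ^ p)⁻¹ * g * b ∈ B then (1 : ZMod p) else 0) = if (a ^ p)⁻¹ * g ∈ B then 1 else 0
    rw [if_congr (Subgroup.mul_mem_cancel_right B hb) rfl rfl]
  have hFA : ∀ g ∈ A, F g = ((T.filter (fun a => a ^ p = g)).card : ZMod p) := by
    intro g hg
    rw [hFs, Finset.card_filter, Nat.cast_sum]
    apply Finset.sum_congr rfl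
    intro a ha
    rw [hf₀]
    have haA := ((hT a).1 ha).1
    by_cases e : a ^ p = g
    · rw [if_pos e, e]; simp [one_mem]
    · rw [if_neg e]
      have : ¬ ((a ^ p)⁻¹ * g ∈ B) := fun h => e (huniq _ (pow_mem haA p) _ hg h)
      simp [this]
  -- the set of nonzero values
  by_contra hcon
  have hne : F a₀ ≠ 0 := by
    rw [hFA a₀ ha₀]
    intro h0
    exact hcon ((ZMod.natCast_eq_zero_iff _ _).1 h0)
  obtain ⟨Q, hQ⟩ : ∃ Q : Set G, Q = {g | g ∈ A ∧ F g ≠ 0} := ⟨_, rfl⟩
  have hQA : Subgroup.closure Q ≤ A := by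
    rw [Subgroup.closure_le, hQ]
    exact fun g hg => hg.1
  have hBQ : ∀ b ∈ B, ∀ q ∈ Q, pr (b * q) ∈ Q := by
    intro b hb q hq
    rw [hQ] at hq ⊢
    refine ⟨hprA _, ?_⟩
    have h2 : pr (b * q) = b * q * ((pr (b * q))⁻¹ * (b * q))⁻¹ := by group
    rw [h2, hFr _ (inv_mem (hprB _)), hFB b hb]
    exact hq.2
  -- `closure Q * B` is invariant
  have hBcl : ∀ c ∈ Subgroup.closure Q, ∀ b ∈ B, ∃ c' ∈ Subgroup.closure Q, ∃ b' ∈ B, b * c = c' * b' := by
    intro c hc
    induction hc using Subgroup.closure_induction with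
    | mem q hq =>
      intro b hb
      exact ⟨_, Subgroup.subset_closure (hBQ b hb q hq), _, hprB (b * q), by group⟩
    | one => intro b hb; exact ⟨1, one_mem _, b, hb, by group⟩
    | mul c d _ _ ihc ihd =>
      intro b hb
      obtain ⟨c', hc', b', hb', e⟩ := ihc b hb
      obtain ⟨d', hd', b'', hb'', e'⟩ := ihd b' hb'
      refine ⟨c' * d', mul_mem hc' hd', b'', hb'', ?_⟩
      calc b * (c * d) = (b * c) * d := by group
        _ = c' * (b' * d) := by rw [e]; group
        _ = c' * d' * b'' := by rw [e']; group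
    | inv c hc ihc =>
      -- c has finite order
      intro b hb
      have key : ∀ n : ℕ, ∀ b ∈ B, ∃ c' ∈ Subgroup.closure Q, ∃ b' ∈ B, b * c ^ n = c' * b' := by
        intro n
        induction n with
        | zero => intro b hb; exact ⟨1, one_mem _, b, hb, by group⟩
        | succ n ih =>
          intro b hb
          obtain ⟨c', hc', b', hb', e⟩ := ih b hb
          obtain ⟨d', hd', b'', hb'', e'⟩ := ihc b' hb'
          refine ⟨c' * d', mul_mem hc' hd', b'', hb'', ?_⟩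
          calc b * c ^ (n + 1) = (b * c ^ n) * c := by rw [pow_succ]; group
            _ = c' * (b' * c) := by rw [e]; group
            _ = c' * d' * b'' := by rw [e']; group
      have hn : c⁻¹ = c ^ (orderOf c - 1) := by
        rw [eq_comm, ← mul_eq_one_iff_eq_inv, ← pow_succ, Nat.sub_add_cancel (orderOf_pos c), pow_orderOf_eq_one]
      rw [hn]
      exact key _ b hb
  have hH : Subgroup.closure (Q ∪ (B : Set G)) = B ∨ Subgroup.closure (Q ∪ (B : Set G)) = ⊤ := by
    have hle : B ≤ Subgroup.closure (Q ∪ (B : Set G)) := fun b hb => Subgroup.subset_closure (Or.inr hb)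
    rcases eq_or_lt_of_le hle with h | h
    · exact Or.inl h.symm
    · exact Or.inr (hB.2 _ h)
  rcases hH with h | h
  · have : a₀ ∈ Subgroup.closure (Q ∪ (B : Set G)) := Subgroup.subset_closure (Or.inl (by rw [hQ]; exact ⟨ha₀, hne⟩))
    rw [h] at this
    have : a₀ ∈ A ⊓ B := Subgroup.mem_inf.2 ⟨ha₀, this⟩
    rw [hAB1, Subgroup.mem_bot] at this
    exact h1 this
  · have hall : ∀ g ∈ Subgroup.closure (Q ∪ (B : Set G)), ∀ y : G,
        (∃ c ∈ Subgroup.closure Q, ∃ b ∈ B, y = c * b) → ∃ c ∈ Subgroup.closure Q, ∃ b ∈ B, g * y = c * b := by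
      intro g hg
      induction hg using Subgroup.closure_induction with
      | mem g hg =>
        rintro y ⟨c, hc, b, hb, rfl⟩
        rcases hg with hg | hg
        · exact ⟨g * c, mul_mem (Subgroup.subset_closure hg) hc, b, hb, by group⟩
        · obtain ⟨c', hc', b', hb', e⟩ := hBcl c hc g hg
          exact ⟨c', hc', b' * b, mul_mem hb' hb, by rw [← mul_assoc, e]; group⟩
      | one => intro y hy; rwa [one_mul]
      | mul g g' _ _ ih ih' => intro y hy; rw [mul_assoc]; exact ih _ (ih' _ hy)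
      | inv g hg ih =>
        intro y hy
        have key : ∀ n : ℕ, ∀ y : G, (∃ c ∈ Subgroup.closure Q, ∃ b ∈ B, y = c * b) →
            ∃ c ∈ Subgroup.closure Q, ∃ b ∈ B, g ^ n * y = c * b := by
          intro n
          induction n with
          | zero => intro y hy; rwa [pow_zero, one_mul]
          | succ n ihn => intro y hy; rw [pow_succ, mul_assoc]; exact ihn _ (ih _ hy)
        have hn : g⁻¹ = g ^ (orderOf g - 1) := by
          rw [eq_comm, ← mul_eq_one_iff_eq_inv, ← pow_succ, Nat.sub_add_cancel (orderOf_pos g), pow_orderOf_eq_one]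
        rw [hn]
        exact key _ y hy
    have hAcl : A ≤ Subgroup.closure Q := by
      intro a ha
      obtain ⟨c, hc, b, hb, e⟩ := hall a (by rw [h]; trivial) 1 ⟨1, one_mem _, 1, one_mem _, by group⟩
      rw [mul_one] at e
      have := huniq c (hQA hc) a ha (by rw [e, inv_mul_cancel_left]; exact hb)
      rw [← this]; exact hc
    -- the power map is not surjective
    obtain ⟨z, hzA, hz1, hzp⟩ : ∃ z ∈ A, z ≠ 1 ∧ z ^ p = 1 := by
      obtain ⟨z, hz⟩ := exists_prime_orderOf_dvd_card' (G := A) p hpA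
      refine ⟨z, z.2, ?_, ?_⟩
      · intro h0
        have : z = 1 := Subtype.ext h0
        rw [this, orderOf_one] at hz
        exact hp.one_lt.ne hz
      · have := pow_orderOf_eq_one z
        rw [hz] at this
        exact congrArg Subtype.val this
    have hpw : A ≤ A.map (MonoidHom.id G) := by rw [Subgroup.map_id]
    let P : A → A := fun a => a ^ p
    have hsurj : Function.Surjective P := by
      -- the image of the power map contains closure Q
      have hcl : ∀ g ∈ Subgroup.closure Q, ∃ a ∈ A, a ^ p = g := by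
        intro g hg
        induction hg using Subgroup.closure_induction with
        | mem g hg =>
          rw [hQ] at hg
          have h2 := hg.2
          rw [hFA g hg.1] at h2
          have h3 : (T.filter (fun a => a ^ p = g)).Nonempty := by
            rw [Finset.nonempty_iff_ne_empty]
            intro h0
            rw [h0] at h2
            simp at h2
          obtain ⟨a, ha⟩ := h3
          rw [Finset.mem_filter] at ha
          exact ⟨a, ((hT a).1 ha.1).1, ha.2⟩
        | one => exact ⟨1, one_mem _, one_pow p⟩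
        | mul g g' _ _ ih ih' =>
          obtain ⟨a, ha, rfl⟩ := ih
          obtain ⟨a', ha', rfl⟩ := ih'
          exact ⟨a * a', mul_mem ha ha', (show Commute a a' from hcomm a ha a' ha').mul_pow p⟩
        | inv g _ ih =>
          obtain ⟨a, ha, rfl⟩ := ih
          exact ⟨a⁻¹, inv_mem ha, inv_pow a p⟩
      intro a
      obtain ⟨a', ha', e⟩ := hcl a (hAcl a.2)
      exact ⟨⟨a', ha'⟩, Subtype.ext e⟩
    have hinj := Finite.injective_iff_surjective.2 hsurj
    have : (⟨z, hzA⟩ : A) = 1 := hinj (by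
      apply Subtype.ext
      show z ^ p = (1 : G) ^ p
      rw [hzp, one_pow])
    exact hz1 (congrArg Subtype.val this)

theorem schurP (A B : Subgroup G) (hA : IsCyclic A) (hB : IsCoatom B)
    (hAB : ∀ g : G, ∃ a ∈ A, ∃ b ∈ B, g = a * b) (hAB1 : A ⊓ B = ⊥) (p : ℕ) (hp : p.Prime)
    (hpA : p ∣ Nat.card A) :
    (∀ x ∈ A, x ≠ 1 → ∃ z ∈ A, z ≠ 1 ∧ z ^ p = 1 ∧ ∃ b ∈ B, ∃ b' ∈ B, z = b * x * b') ∧
    (∀ x ∈ A, x ^ p ≠ 1 → ∀ z ∈ A, z ^ p = 1 → ∃ b ∈ B, ∃ b' ∈ B, x * z = b * x * b') := by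
  classical
  have : Fact p.Prime := ⟨hp⟩
  have hcomm : ∀ a ∈ A, ∀ a' ∈ A, a * a' = a' * a := by
    intro a ha a' ha'
    have := IsCyclic.isMulCommutative (α := A)
    exact congrArg Subtype.val (mul_comm' (⟨a, ha⟩ : A) ⟨a', ha'⟩)
  have hAinf : ∀ g, g ∈ A → g ∈ B → g = 1 := by
    intro g h h'
    have : g ∈ A ⊓ B := Subgroup.mem_inf.2 ⟨h, h'⟩
    rwa [hAB1, Subgroup.mem_bot] at this
  have hii : ∀ x ∈ A, x ^ p ≠ 1 → ∀ z ∈ A, z ^ p = 1 → ∃ b ∈ B, ∃ b' ∈ B, x * z = b * x * b' := by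
    intro x hx hxp z hz hzp
    have : Fintype G := Fintype.ofFinite G
    obtain ⟨T, hT⟩ : ∃ T : Finset G, ∀ a, a ∈ T ↔ a ∈ A ∧ ∃ b ∈ B, ∃ b' ∈ B, a = b * x * b' :=
      ⟨Finset.univ.filter (fun a => a ∈ A ∧ ∃ b ∈ B, ∃ b' ∈ B, a = b * x * b'), fun a => by simp⟩
    have h1 := spKey A B hA hB hAB hAB1 p hp hpA x T hT (x ^ p) (pow_mem hx p) hxp
    have hxT : x ∈ T := (hT x).2 ⟨hx, 1, one_mem _, 1, one_mem _, by group⟩
    -- the set of all solutions
    have h2 : T.filter (fun a => a ^ p = x ^ p) ⊆ (Finset.univ.filter (fun z : G => z ∈ A ∧ z ^ p = 1)).image (x * ·) := by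
      intro a ha
      rw [Finset.mem_filter] at ha
      rw [Finset.mem_image]
      have haA := ((hT a).1 ha.1).1
      refine ⟨x⁻¹ * a, ?_, by group⟩
      rw [Finset.mem_filter]
      refine ⟨Finset.mem_univ _, A.mul_mem (A.inv_mem hx) haA, ?_⟩
      rw [(show Commute x⁻¹ a from hcomm _ (A.inv_mem hx) _ haA).mul_pow, ha.2, inv_pow, inv_mul_cancel]
    have h3 : (Finset.univ.filter (fun z : G => z ∈ A ∧ z ^ p = 1)).card ≤ p := by
      have h4 := IsCyclic.card_pow_eq_one_le (α := A) (n := p) hp.pos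
      refine le_trans (le_of_eq ?_) h4
      symm
      apply Finset.card_bij (fun (z : A) _ => (z : G))
      · intro z hz
        rw [Finset.mem_filter] at hz ⊢
        exact ⟨Finset.mem_univ _, z.2, congrArg Subtype.val hz.2⟩
      · intro z _ z' _ e
        exact Subtype.ext e
      · intro z hz
        rw [Finset.mem_filter] at hz
        refine ⟨⟨z, hz.2.1⟩, ?_, rfl⟩
        rw [Finset.mem_filter]
        exact ⟨Finset.mem_univ _, Subtype.ext hz.2.2⟩
    have h4 : (T.filter (fun a => a ^ p = x ^ p)).Nonempty := ⟨x, Finset.mem_filter.2 ⟨hxT, rfl⟩⟩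
    have h5 : p ≤ (T.filter (fun a => a ^ p = x ^ p)).card := Nat.le_of_dvd (Finset.card_pos.2 h4) h1
    have h6 : T.filter (fun a => a ^ p = x ^ p) = (Finset.univ.filter (fun z : G => z ∈ A ∧ z ^ p = 1)).image (x * ·) :=
      Finset.eq_of_subset_of_card_le h2 (le_trans (le_trans Finset.card_image_le h3) h5)
    have h7 : x * z ∈ T.filter (fun a => a ^ p = x ^ p) := by
      rw [h6, Finset.mem_image]
      exact ⟨z, Finset.mem_filter.2 ⟨Finset.mem_univ _, hz, hzp⟩, rfl⟩
    exact ((hT _).1 (Finset.mem_filter.1 h7).1).2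
  refine ⟨?_, hii⟩
  intro x hx hx1
  by_contra hno
  push Not at hno
  -- the double coset
  obtain ⟨D, hD⟩ : ∃ D : Set G, D = {g | ∃ b ∈ B, ∃ b' ∈ B, g = b * x * b'} := ⟨_, rfl⟩
  obtain ⟨z, hzA, hz1, hzp⟩ : ∃ z ∈ A, z ≠ 1 ∧ z ^ p = 1 := by
    obtain ⟨z, hz⟩ := exists_prime_orderOf_dvd_card' (G := A) p hpA
    refine ⟨z, z.2, ?_, ?_⟩
    · intro h0
      have : z = 1 := Subtype.ext h0
      rw [this, orderOf_one] at hz
      exact hp.one_lt.ne hz
    · have := pow_orderOf_eq_one z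
      rw [hz] at this
      exact congrArg Subtype.val this
  have hxB : x ∉ B := fun h => hx1 (hAinf x hx h)
  have h1D : (1 : G) ∉ D := by
    rw [hD]
    rintro ⟨b, hb, b', hb', e⟩
    apply hxB
    have : x = b⁻¹ * (b * x * b') * b'⁻¹ := by group
    rw [this, ← e]
    exact mul_mem (mul_mem (inv_mem hb) (one_mem _)) (inv_mem hb')
  -- elements of A in D have nontrivial p-th power
  have hDp : ∀ a ∈ A, a ∈ D → a ^ p ≠ 1 := by
    intro a ha haD hap
    have ha1 : a ≠ 1 := by rintro rfl; exact h1D haD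
    rw [hD] at haD
    obtain ⟨b, hb, b', hb', e⟩ := haD
    exact hno a ha ha1 hap b hb b' hb' e
  have hDB : ∀ b ∈ B, ∀ d ∈ D, b * d ∈ D := by
    intro b hb d hd
    rw [hD] at hd ⊢
    obtain ⟨c, hc, c', hc', rfl⟩ := hd
    exact ⟨b * c, mul_mem hb hc, c', hc', by group⟩
  have hDB' : ∀ b ∈ B, ∀ d ∈ D, d * b ∈ D := by
    intro b hb d hd
    rw [hD] at hd ⊢
    obtain ⟨c, hc, c', hc', rfl⟩ := hd
    exact ⟨c, hc, c' * b, mul_mem hc' hb, by group⟩
  have hDz : ∀ w ∈ A, w ^ p = 1 → ∀ d ∈ D, w * d ∈ D := by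
    intro w hw hwp d hd
    obtain ⟨a, ha, b, hb, rfl⟩ := hAB d
    have haD : a ∈ D := by
      have := hDB' b⁻¹ (inv_mem hb) _ hd
      rwa [mul_inv_cancel_right] at this
    obtain ⟨c, hc, c', hc', e⟩ := hii a ha (hDp a ha haD) w hw hwp
    have h2 : w * a ∈ D := by
      rw [hcomm w hw a ha, e]
      exact hDB' c' hc' _ (hDB c hc _ haD)
    rw [← mul_assoc]
    exact hDB' b hb _ h2
  -- the stabilizer
  let S : Subgroup G :=
    { carrier := {g | (∀ d ∈ D, g * d ∈ D) ∧ ∀ d ∈ D, g⁻¹ * d ∈ D}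
      one_mem' := ⟨fun d hd => by rwa [one_mul], fun d hd => by rwa [inv_one, one_mul]⟩
      mul_mem' := by
        rintro g g' ⟨h1, h2⟩ ⟨h1', h2'⟩
        exact ⟨fun d hd => by rw [mul_assoc]; exact h1 _ (h1' _ hd),
          fun d hd => by rw [mul_inv_rev, mul_assoc]; exact h2' _ (h2 _ hd)⟩
      inv_mem' := by
        rintro g ⟨h1, h2⟩
        exact ⟨h2, fun d hd => by rw [inv_inv]; exact h1 d hd⟩ }
  have hBS : B ≤ S := fun b hb => ⟨hDB b hb, hDB _ (inv_mem hb)⟩
  have hzS : z ∈ S := ⟨hDz z hzA hzp, hDz _ (inv_mem hzA) (by rw [inv_pow, hzp, inv_one])⟩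
  have hST : S = ⊤ := by
    apply hB.2
    refine lt_of_le_of_ne hBS ?_
    intro h
    rw [← h] at hzS
    exact hz1 (hAinf z hzA hzS)
  have hxD : x ∈ D := by rw [hD]; exact ⟨1, one_mem _, 1, one_mem _, by group⟩
  have : x⁻¹ ∈ S := by rw [hST]; trivial
  apply h1D
  have h3 := this.1 x hxD
  rwa [inv_mul_cancel] at h3

end R

end Cfsg.Agent.Lib.AB68
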