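import Mathlib
import Cfsg.Agent.Lib.AB68
import Cfsg.Agent.Lib.AB68_SP

set_option autoImplicit false
set_option linter.unusedSectionVars false
set_option linter.unusedSimpArgs false
set_option linter.unusedVariables false

/-! Schur's argument: only one nontrivial double coset. -/

namespace Cfsg.Agent.Lib.AB68

universe u

section R
variable {G : Type u} [Group G] [Finite G]

theorem seInv (A : Subgroup G) (hA : IsCyclic A) {u z : G} (hu : u ∈ A) (hz : z ∈ A) (hu1 : u ≠ 1) (hz1 : z ≠ 1)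
    (hu2 : u ^ 2 = 1) (hz2 : z ^ 2 = 1) : z = u := by
  classical
  have : Fintype A := Fintype.ofFinite A
  have h4 := IsCyclic.card_pow_eq_one_le (α := A) (n := 2) (by norm_num)
  by_contra hne
  have h5 : ({1, ⟨u, hu⟩, ⟨z, hz⟩} : Finset A) ⊆ Finset.univ.filter (fun a : A => a ^ 2 = 1) := by
    intro a ha
    rw [Finset.mem_filter]
    refine ⟨Finset.mem_univ _, ?_⟩
    simp only [Finset.mem_insert, Finset.mem_singleton] at ha
    rcases ha with rfl | rfl | rfl
    · exact one_pow 2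
    · exact Subtype.ext hu2
    · exact Subtype.ext hz2
  have h6 := Finset.card_le_card h5
  rw [Finset.card_insert_of_notMem, Finset.card_insert_of_notMem, Finset.card_singleton] at h6
  · omega
  · rw [Finset.mem_singleton]
    intro h; exact hne (congrArg Subtype.val h).symm
  · simp only [Finset.mem_insert, Finset.mem_singleton]
    rintro (h | h)
    · exact hu1 (congrArg Subtype.val h).symm
    · exact hz1 (congrArg Subtype.val h).symm

/-- a common element of the double cosets gives the claim -/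
theorem seAll (A B : Subgroup G) (hAB : ∀ g : G, ∃ a ∈ A, ∃ b ∈ B, g = a * b) (w : G)
    (hw : ∀ x ∈ A, x ≠ 1 → ∃ b ∈ B, ∃ b' ∈ B, w = b * x * b') :
    ∀ x y : G, x ∉ B → y ∉ B → ∃ b ∈ B, ∃ b' ∈ B, y = b * x * b' := by
  have key : ∀ x : G, x ∉ B → ∃ b ∈ B, ∃ b' ∈ B, w = b * x * b' := by
    intro x hx
    obtain ⟨a, ha, c, hc, rfl⟩ := hAB x
    have ha1 : a ≠ 1 := by
      rintro rfl
      exact hx (by rwa [one_mul])
    obtain ⟨b, hb, b', hb', e⟩ := hw a ha ha1
    exact ⟨b, hb, c⁻¹ * b', mul_mem (inv_mem hc) hb', by rw [e]; group⟩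
  intro x y hx hy
  obtain ⟨b, hb, b', hb', e⟩ := key x hx
  obtain ⟨c, hc, c', hc', e'⟩ := key y hy
  refine ⟨c⁻¹ * b, mul_mem (inv_mem hc) hb, b' * c'⁻¹, mul_mem hb' (inv_mem hc'), ?_⟩
  have : c⁻¹ * b * x * (b' * c'⁻¹) = c⁻¹ * (b * x * b') * c'⁻¹ := by group
  rw [this, ← e, e']
  group

theorem seExists (A : Subgroup G) (p : ℕ) (hp : p.Prime) (hpA : p ∣ Nat.card A) :
    ∃ z ∈ A, z ≠ 1 ∧ z ^ p = 1 := by
  have : Fact p.Prime := ⟨hp⟩
  obtain ⟨z, hz⟩ := exists_prime_orderOf_dvd_card' (G := A) p hpA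
  refine ⟨z, z.2, ?_, ?_⟩
  · intro h0
    have : z = 1 := Subtype.ext h0
    rw [this, orderOf_one] at hz
    exact hp.one_lt.ne hz
  · have := pow_orderOf_eq_one z
    rw [hz] at this
    exact congrArg Subtype.val this

theorem schurE' (A B : Subgroup G) (hA : IsCyclic A) (hB : IsCoatom B)
    (hAB : ∀ g : G, ∃ a ∈ A, ∃ b ∈ B, g = a * b) (hAB1 : A ⊓ B = ⊥) (hev : Even (Nat.card A)) :
    ∀ x y : G, x ∉ B → y ∉ B → ∃ b ∈ B, ∃ b' ∈ B, y = b * x * b' := by
  have h2 : 2 ∣ Nat.card A := hev.two_dvd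
  obtain ⟨u, hu, hu1, hu2⟩ := seExists A 2 Nat.prime_two h2
  apply seAll A B hAB u
  intro x hx hx1
  obtain ⟨z, hz, hz1, hz2, b, hb, b', hb', e⟩ := (schurP A B hA hB hAB hAB1 2 Nat.prime_two h2).1 x hx hx1
  exact ⟨b, hb, b', hb', by rw [← e]; exact (seInv A hA hu hz hu1 hz1 hu2 hz2).symm⟩

theorem schurE (A B : Subgroup G) (hA : IsCyclic A) (hB : IsCoatom B)
    (hAB : ∀ g : G, ∃ a ∈ A, ∃ b ∈ B, g = a * b) (hAB1 : A ⊓ B = ⊥)
    (hev : Even (Nat.card A) ∨ ¬ IsPrimePow (Nat.card A)) :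
    ∀ x y : G, x ∉ B → y ∉ B → ∃ b ∈ B, ∃ b' ∈ B, y = b * x * b' := by
  rcases hev with hev | hnp
  · exact schurE' A B hA hB hAB hAB1 hev
  by_cases h1 : Nat.card A = 1
  · intro x y hx
    exfalso
    apply hx
    obtain ⟨a, ha, b, hb, rfl⟩ := hAB x
    have hbot : A = ⊥ := Subgroup.card_eq_one.1 h1
    rw [hbot, Subgroup.mem_bot] at ha
    rw [ha, one_mul]
    exact hb
  -- two primes
  obtain ⟨p, q, hp, hq, hpq, hpA, hqA⟩ : ∃ p q : ℕ, p.Prime ∧ q.Prime ∧ p ≠ q ∧ p ∣ Nat.card A ∧ q ∣ Nat.card A := by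
    obtain ⟨p, hp, hpA⟩ := Nat.exists_prime_and_dvd h1
    by_contra hno
    push Not at hno
    apply hnp
    have h0 : Nat.card A ≠ 0 := Nat.card_pos.ne'
    have h2 : Nat.card A = p ^ (Nat.card A).factorization p := by
      apply Nat.eq_pow_of_factorization_eq_single h0
      ext q
      by_cases hqp : q = p
      · rw [hqp, Finsupp.single_eq_same]
      · rw [Finsupp.single_eq_of_ne hqp]
        by_cases hq : q.Prime
        · by_contra hne
          have : q ∣ Nat.card A := Nat.dvd_of_factorization_pos hne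
          exact hno p q hp hq (fun h => hqp h.symm) hpA this
        · exact Nat.factorization_eq_zero_of_not_prime _ hq
    rw [h2]
    apply hp.isPrimePow.pow
    intro h3
    rw [h3, pow_zero] at h2
    exact h1 h2
  obtain ⟨w, hw, hw1, hwq⟩ := seExists A q hq hqA
  have hPp := schurP A B hA hB hAB hAB1 p hp hpA
  have hPq := schurP A B hA hB hAB hAB1 q hq hqA
  have hcomm : ∀ a ∈ A, ∀ a' ∈ A, a * a' = a' * a := by
    intro a ha a' ha'
    have := IsCyclic.isMulCommutative (α := A)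
    exact congrArg Subtype.val (mul_comm' (⟨a, ha⟩ : A) ⟨a', ha'⟩)
  have hcop : ∀ v : G, v ^ p = 1 → v ^ q = 1 → v = 1 := by
    intro v h2 h3
    have h4 : orderOf v ∣ p := orderOf_dvd_of_pow_eq_one h2
    have h5 : orderOf v ∣ q := orderOf_dvd_of_pow_eq_one h3
    have h6 := Nat.dvd_gcd h4 h5
    rw [(Nat.coprime_primes hp hq).2 hpq] at h6
    exact orderOf_eq_one_iff.1 (Nat.dvd_one.1 h6)
  apply seAll A B hAB w
  intro x hx hx1
  obtain ⟨z, hz, hz1, hzp, b, hb, b', hb', e⟩ := hPp.1 x hx hx1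
  obtain ⟨c, hc, c', hc', e'⟩ := hPq.2 z hz (fun h => hz1 (hcop z hzp h)) w hw hwq
  have h7 : (z * w) ^ p ≠ 1 := by
    rw [(show Commute z w from hcomm z hz w hw).mul_pow, hzp, one_mul]
    exact fun h => hw1 (hcop w h hwq)
  obtain ⟨d, hd, d', hd', e''⟩ := hPp.2 (z * w) (mul_mem hz hw) h7 z⁻¹ (inv_mem hz) (by rw [inv_pow, hzp, inv_one])
  have h8 : z * w * z⁻¹ = w := by rw [hcomm z hz w hw, mul_inv_cancel_right]
  rw [h8, e', e] at e''
  refine ⟨d * (c * b), mul_mem hd (mul_mem hc hb), b' * c' * d', mul_mem (mul_mem hb' hc') hd', ?_⟩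
  rw [e'']
  group

end R

end Cfsg.Agent.Lib.AB68
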