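import Mathlib
import Cfsg.Agent.Lib.AB68
import Cfsg.Agent.Lib.AB68_SE
import Cfsg.Agent.Lib.SwapOrbits
import Cfsg.Agent.S0730

set_option autoImplicit false
set_option linter.unusedSectionVars false
set_option linter.unusedSimpArgs false
set_option linter.unusedVariables false

/-! The primitive quotient acts as `PGL₂(p)` (piece R3, from the permutation group theorem). -/

namespace Cfsg.Agent.Lib.AB68

open Equiv MulAction

universe u

theorem R3_aux {G : Type u} [Group G] [Finite G]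
    (thmP : ∀ {Ω : Type u} {G A : Subgroup (Perm Ω)}, Cfg G A →
      Nat.card Ω = 2 ∨ ∃ p, p.Prime ∧ p ≠ 2 ∧ Nat.card Ω = p + 1 ∧ Sh3 G ∧ Sw G)
    (A B : Subgroup G) (hA : IsCyclic A) (hZ : IsZGroup B) (hB : IsCoatom B)
    (hcore : B.normalCore = ⊥)
    (hAB : ∀ g : G, ∃ a ∈ A, ∃ b ∈ B, g = a * b) (hAB1 : A ⊓ B = ⊥) (hev : Even (Nat.card A))
    (hns : ¬ Group.IsSolvable G) : IsPGL G := by
  classical
  have hdc := schurE' A B hA hB hAB hAB1 hev
  obtain ⟨φ, hφ⟩ : ∃ φ : G →* Perm (G ⧸ B), φ = MulAction.toPermHom G (G ⧸ B) := ⟨_, rfl⟩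
  have hφa : ∀ g (x : G ⧸ B), φ g x = g • x := fun g x => by rw [hφ]; rfl
  have hinj : Function.Injective φ := by
    rw [← MonoidHom.ker_eq_bot_iff, hφ, ← Subgroup.normalCore_eq_ker]
    exact hcore
  have hmk : ∀ g x : G, φ g (x : G ⧸ B) = ((g * x : G) : G ⧸ B) := fun g x => by
    rw [hφa]; rfl
  have hcard : Nat.card (G ⧸ B) = Nat.card A := by
    have hb : Function.Bijective (fun a : A => ((a : G) : G ⧸ B)) := by
      constructor
      · intro a b hab
        have h1 : (a : G)⁻¹ * b ∈ B := QuotientGroup.eq.1 hab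
        have h2 : (a : G)⁻¹ * b ∈ A ⊓ B := ⟨A.mul_mem (A.inv_mem a.2) b.2, h1⟩
        rw [hAB1, Subgroup.mem_bot] at h2
        exact Subtype.ext (inv_mul_eq_one.1 h2)
      · intro x
        obtain ⟨g, rfl⟩ := QuotientGroup.mk_surjective x
        obtain ⟨a, ha, b, hb, rfl⟩ := hAB g
        refine ⟨⟨a, ha⟩, ?_⟩
        show ((a : G) : G ⧸ B) = ((a * b : G) : G ⧸ B)
        rw [QuotientGroup.eq, inv_mul_cancel_left]
        exact hb
    exact (Nat.card_congr (Equiv.ofBijective _ hb)).symm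
  have cfg : Cfg φ.range (A.map φ) := by
    refine ⟨?_, Subgroup.map_le_range φ A, ?_, ?_, ?_, ?_, ⟨((1 : G) : G ⧸ B)⟩, inferInstance⟩
    · intro a b c d hab hcd
      obtain ⟨x, rfl⟩ := QuotientGroup.mk_surjective a
      obtain ⟨y, rfl⟩ := QuotientGroup.mk_surjective b
      obtain ⟨z, rfl⟩ := QuotientGroup.mk_surjective c
      obtain ⟨w, rfl⟩ := QuotientGroup.mk_surjective d
      obtain ⟨b1, hb1, b2, hb2, e⟩ := hdc (x⁻¹ * y) (z⁻¹ * w) (fun h => hab (QuotientGroup.eq.2 h))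
        (fun h => hcd (QuotientGroup.eq.2 h))
      refine ⟨φ (z * b1 * x⁻¹), ⟨_, rfl⟩, ?_, ?_⟩
      · show φ (z * b1 * x⁻¹) (x : G ⧸ B) = (z : G ⧸ B)
        rw [hmk, eq_comm, QuotientGroup.eq]
        have : z⁻¹ * (z * b1 * x⁻¹ * x) = b1 := by group
        rw [this]; exact hb1
      · show φ (z * b1 * x⁻¹) (y : G ⧸ B) = (w : G ⧸ B)
        rw [hmk, QuotientGroup.eq]
        have h3 : w = z * (b1 * (x⁻¹ * y) * b2) := by rw [← e]; group
        have : (z * b1 * x⁻¹ * y)⁻¹ * w = b2 := by rw [h3]; group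
        rw [this]; exact hb2
    · exact ((A.equivMapOfInjective φ hinj).isCyclic).1 hA
    · intro a b
      obtain ⟨x, rfl⟩ := QuotientGroup.mk_surjective a
      obtain ⟨y, rfl⟩ := QuotientGroup.mk_surjective b
      obtain ⟨a1, ha1, b1, hb1, rfl⟩ := hAB x
      obtain ⟨a2, ha2, b2, hb2, rfl⟩ := hAB y
      refine ⟨φ (a2 * a1⁻¹), ⟨_, mul_mem ha2 (inv_mem ha1), rfl⟩, ?_⟩
      show φ (a2 * a1⁻¹) ((a1 * b1 : G) : G ⧸ B) = ((a2 * b2 : G) : G ⧸ B)
      rw [hmk, QuotientGroup.eq]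
      have : (a2 * a1⁻¹ * (a1 * b1))⁻¹ * (a2 * b2) = b1⁻¹ * b2 := by group
      rw [this]; exact mul_mem (inv_mem hb1) hb2
    · intro a
      obtain ⟨x, rfl⟩ := QuotientGroup.mk_surjective a
      have hψ : Function.Injective (φ.comp (MulAut.conj x).toMonoidHom) :=
        hinj.comp (MulAut.conj x).injective
      have hK : IsZGroup (B.map (φ.comp (MulAut.conj x).toMonoidHom)) :=
        IsZGroup.of_injective (f := (B.equivMapOfInjective _ hψ).symm.toMonoidHom)
          (B.equivMapOfInjective _ hψ).symm.injective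
      have hle : st φ.range ((x : G) : G ⧸ B) ≤ B.map (φ.comp (MulAut.conj x).toMonoidHom) := by
        rintro _ ⟨⟨g, rfl⟩, hg⟩
        rw [hmk, eq_comm, QuotientGroup.eq] at hg
        refine ⟨x⁻¹ * (g * x), hg, ?_⟩
        show φ (x * (x⁻¹ * (g * x)) * x⁻¹) = φ g
        congr 1; group
      exact IsZGroup.of_injective (f := Subgroup.inclusion hle) (Subgroup.inclusion_injective hle)
    · rw [hcard]; exact hev
  have hsolv : Nat.card (G ⧸ B) ≤ 4 → False := by
    intro h4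
    have := SwapOrbits.isSolvable_perm_of_card_le_four h4
    exact hns (Group.isSolvable_of_isSolvable_injective hinj)
  rcases thmP cfg with h2 | ⟨p, hp, hp2, hc, h3, -⟩
  · exact (hsolv (by omega)).elim
  have hp3 : 3 < p := by
    by_contra hlt
    exact hsolv (by omega)
  have : Fintype (G ⧸ B) := Fintype.ofFinite _
  have hm3 : MulAction.IsMultiplyPretransitive φ.range (G ⧸ B) 3 := by
    refine ⟨fun x y => ?_⟩
    have hx : ∀ i j : Fin 3, i ≠ j → x i ≠ x j := fun i j hij h => hij (x.injective h)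
    have hy : ∀ i j : Fin 3, i ≠ j → y i ≠ y j := fun i j hij h => hij (y.injective h)
    obtain ⟨g, hg, h0, h1, h2⟩ := h3.1 (x 0) (x 1) (x 2) (y 0) (y 1) (y 2)
      (hx _ _ (by decide)) (hx _ _ (by decide)) (hx _ _ (by decide))
      (hy _ _ (by decide)) (hy _ _ (by decide)) (hy _ _ (by decide))
    refine ⟨⟨g, hg⟩, ?_⟩
    ext i
    fin_cases i
    · exact h0
    · exact h1
    · exact h2
  have hsh : ∀ x : Fin 3 ↪ (G ⧸ B), MulAction.stabilizer φ.range x = ⊥ := by
    intro x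
    have hx : ∀ i j : Fin 3, i ≠ j → x i ≠ x j := fun i j hij h => hij (x.injective h)
    rw [eq_bot_iff]
    rintro ⟨g, hg⟩ hs
    rw [MulAction.mem_stabilizer_iff] at hs
    have hs' : ∀ i, g (x i) = x i := fun i => DFunLike.congr_fun hs i
    rw [Subgroup.mem_bot]
    exact Subtype.ext (h3.2 g hg (x 0) (x 1) (x 2) (hx _ _ (by decide)) (hx _ _ (by decide))
      (hx _ _ (by decide)) (hs' 0) (hs' 1) (hs' 2))
  obtain ⟨F, hF, hFt, hFc, ⟨e⟩⟩ := Cfsg.Agent.S0730.result (α := G ⧸ B) (f := 1) hp hp2 odd_one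
    (by rw [← Nat.card_eq_fintype_card, hc, pow_one]) φ.range hm3 hsh
  refine ⟨F, hF, hFt, p, hp, hp3, by rw [hFc, pow_one], ⟨?_⟩⟩
  exact (MonoidHom.ofInjective hinj).trans e

end Cfsg.Agent.Lib.AB68
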