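import Mathlib
import Cfsg.Agent.Lib.AB68_P10
import Cfsg.Agent.Lib.AB68_R3a
import Cfsg.Agent.Lib.AB68_Q4a
import Cfsg.Agent.Lib.AB68_Q1
import Cfsg.Agent.Lib.AB68_Q2
import Cfsg.Agent.Lib.AB68_PF

/-! Products of a cyclic group and a Z-group: the main induction. -/

set_option autoImplicit false

namespace Cfsg.Agent.Lib.AB68

open Equiv

universe u


/-- exists quotient by a solvable normal subgroup from a surjection -/
theorem asm_lift {G X : Type*} [Group G] [Group X] (f : G →* X) (hf : Function.Surjective f) (hX : IsPGL X)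
    (hk : Group.IsSolvable f.ker) : ∃ R : Subgroup G, ∃ _ : R.Normal, Group.IsSolvable R ∧ IsPGL (G ⧸ R) := by
  obtain ⟨F, i1, i2, p, hp, h3, hc, ⟨e⟩⟩ := hX
  exact ⟨f.ker, inferInstance, hk, F, i1, i2, p, hp, h3, hc,
    ⟨(QuotientGroup.quotientKerEquivOfSurjective f hf).trans e⟩⟩

theorem asm_ker {G : Type*} [Group G] (C : Subgroup G) [C.Normal] (hC : Group.IsSolvable C)
    (R : Subgroup (G ⧸ C)) [R.Normal] (hR : Group.IsSolvable R) :
    Group.IsSolvable (((QuotientGroup.mk' R).comp (QuotientGroup.mk' C)).ker) := by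
  let L := ((QuotientGroup.mk' R).comp (QuotientGroup.mk' C)).ker
  have hmem : ∀ x : L, QuotientGroup.mk' C x.1 ∈ R := by
    intro x
    have := MonoidHom.mem_ker.1 x.2
    rw [MonoidHom.comp_apply] at this
    exact (QuotientGroup.eq_one_iff _).1 this
  let φ : L →* R := ((QuotientGroup.mk' C).comp L.subtype).codRestrict R hmem
  have hle : C ≤ L := by
    intro x hx
    rw [MonoidHom.mem_ker, MonoidHom.comp_apply]
    have : QuotientGroup.mk' C x = 1 := (QuotientGroup.eq_one_iff _).2 hx
    rw [this, map_one]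
  refine Group.isSolvable_of_ker_le_range (Subgroup.inclusion hle) φ ?_
  intro x hx
  have h1 : QuotientGroup.mk' C x.1 = 1 := congrArg Subtype.val (MonoidHom.mem_ker.1 hx)
  have h2 : x.1 ∈ C := (QuotientGroup.eq_one_iff _).1 h1
  exact ⟨⟨x.1, h2⟩, rfl⟩

theorem asm_cyc_map {G H : Type*} [Group G] [Group H] (f : G →* H) (A : Subgroup G) (hA : IsCyclic A) :
    IsCyclic (A.map f) := by
  haveI := hA
  exact isCyclic_of_surjective (f.subgroupMap A) (f.subgroupMap_surjective A)

theorem asm_zg_map {G H : Type*} [Group G] [Finite G] [Group H] (f : G →* H) (A : Subgroup G) (hA : IsZGroup A) :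
    IsZGroup (A.map f) := by
  haveI := hA
  exact IsZGroup.of_surjective (f := f.subgroupMap A) (f.subgroupMap_surjective A)

theorem mainI (hFT : ∀ (H : Type u) [Group H] [Finite H], Odd (Nat.card H) → Group.IsSolvable H) (n : ℕ) :
    ∀ (G : Type u) [Group G] [Finite G], Nat.card G = n → ¬ Group.IsSolvable G →
    ∀ A B : Subgroup G, IsCyclic A → IsZGroup B → (∀ g : G, ∃ a ∈ A, ∃ b ∈ B, g = a * b) →
    ∃ R : Subgroup G, ∃ _ : R.Normal, Group.IsSolvable R ∧ IsPGL (G ⧸ R) := by
  induction n using Nat.strong_induction_on with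
  | _ n ih =>
  intro G _ _ hn hns A B hA hZ hAB
  have hQI : ∀ (C : Subgroup G) [C.Normal], C ≠ ⊥ → ¬ Group.IsSolvable (G ⧸ C) →
      ∃ R : Subgroup (G ⧸ C), ∃ _ : R.Normal, Group.IsSolvable R ∧ IsPGL ((G ⧸ C) ⧸ R) := by
    intro C _ hC hs
    have hlt : Nat.card (G ⧸ C) < n := by
      have h1 := Subgroup.card_eq_card_quotient_mul_card_subgroup C
      have h2 : 1 < Nat.card C := (Subgroup.one_lt_card_iff_ne_bot C).2 hC
      have h3 : 0 < Nat.card (G ⧸ C) := Nat.card_pos
      rw [← hn, h1]
      nlinarith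
    refine ih _ hlt (G ⧸ C) rfl hs (A.map (QuotientGroup.mk' C)) (B.map (QuotientGroup.mk' C))
      (asm_cyc_map _ A hA) (asm_zg_map _ B hZ) ?_
    intro x
    obtain ⟨g, rfl⟩ := QuotientGroup.mk'_surjective C x
    obtain ⟨a, ha, b, hb, rfl⟩ := hAB g
    exact ⟨_, Subgroup.mem_map_of_mem _ ha, _, Subgroup.mem_map_of_mem _ hb, map_mul _ _ _⟩
  by_cases hex : ∃ N : Subgroup G, N.Normal ∧ Group.IsSolvable N ∧ N ≠ ⊥
  · obtain ⟨N, hN, hNs, hN1⟩ := hex
    have hs : ¬ Group.IsSolvable (G ⧸ N) := by
      intro hs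
      exact hns (Group.isSolvable_of_ker_le_range N.subtype (QuotientGroup.mk' N) (by
        rw [QuotientGroup.ker_mk', Subgroup.range_subtype]))
    obtain ⟨R, hR, hRs, hP⟩ := hQI N hN1 hs
    exact asm_lift ((QuotientGroup.mk' R).comp (QuotientGroup.mk' N))
      ((QuotientGroup.mk'_surjective R).comp (QuotientGroup.mk'_surjective N)) hP (asm_ker N hNs R hRs)
  have hR : ∀ N : Subgroup G, N.Normal → Group.IsSolvable N → N = ⊥ := by
    intro N h1 h2
    by_contra h3
    exact hex ⟨N, h1, h2, h3⟩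
  have hBs : Group.IsSolvable B := by
    haveI := hZ
    infer_instance
  have hBt : B ≠ ⊤ := by
    rintro rfl
    exact hns (Group.isSolvable_of_isSolvable_injective (f := (Subgroup.topEquiv (G := G)).symm.toMonoidHom)
      (Subgroup.topEquiv (G := G)).symm.injective)
  obtain ⟨M, hM, hBM⟩ := (eq_top_or_exists_le_coatom B).resolve_left hBt
  by_cases hK : M.normalCore = ⊥
  swap
  · exfalso
    refine Q4_aux (fun h => pgl_facts h) (fun h => pgl_aut h) (fun hR N hN hN1 C => Q1 hR N hN hN1 C)
      (fun A B hA hZ hAB C1 C2 => Q2 A B hA hZ hAB C1 C2) hR A B hA hZ hAB M hM hBM hK ?_ hQI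
    intro hMs
    have hlt : Nat.card M < n := by
      rw [← hn]
      have h1 := Subgroup.card_mul_index M
      have h2 : M.index ≠ 1 := fun h => hM.1 (Subgroup.index_eq_one.1 h)
      have h3 : M.index ≠ 0 := Subgroup.index_ne_zero_of_finite
      have h4 : 0 < Nat.card M := Nat.card_pos
      have : 2 ≤ M.index := by omega
      rw [← h1]
      nlinarith
    refine ih _ hlt M rfl hMs ((A ⊓ M).subgroupOf M) (B.subgroupOf M) ?_ ?_ ?_
    · haveI := hA
      have e := Subgroup.subgroupOfEquivOfLe (inf_le_right : A ⊓ M ≤ M)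
      have h1 : IsCyclic ↥(A ⊓ M) :=
        isCyclic_of_injective (Subgroup.inclusion (inf_le_left : A ⊓ M ≤ A)) (Subgroup.inclusion_injective _)
      exact isCyclic_of_surjective e.symm.toMonoidHom e.symm.surjective
    · haveI := hZ
      have e := Subgroup.subgroupOfEquivOfLe hBM
      exact IsZGroup.of_injective (f := e.toMonoidHom) e.injective
    · rintro ⟨m, hm⟩
      obtain ⟨a, ha, b, hb, hab⟩ := hAB m
      have ham : a ∈ M := by
        have : a = m * b⁻¹ := by rw [hab]; group
        rw [this]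
        exact M.mul_mem hm (M.inv_mem (hBM hb))
      refine ⟨⟨a, ham⟩, Subgroup.mem_subgroupOf.2 ⟨ha, ham⟩, ⟨b, hBM hb⟩, Subgroup.mem_subgroupOf.2 hb, ?_⟩
      exact Subtype.ext hab
  -- core-free case
  have hAM : A ⊓ M = ⊥ := by
    rw [eq_bot_iff]
    rintro x ⟨hxA, hxM⟩
    rw [← hK]
    intro g
    obtain ⟨a, ha, b, hb, hab⟩ := hAB g⁻¹
    have hg : g = b⁻¹ * a⁻¹ := by rw [← mul_inv_rev, ← hab, inv_inv]
    have hcomm : a⁻¹ * x * a = x := by
      haveI := hA
      letI := IsCyclic.commGroup (α := A)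
      have h1 := mul_comm (⟨x, hxA⟩ : A) ⟨a, ha⟩
      have h2 : x * a = a * x := congrArg Subtype.val h1
      rw [mul_assoc, h2, inv_mul_cancel_left]
    have : g * x * g⁻¹ = b⁻¹ * x * b := by
      rw [hg, mul_inv_rev, inv_inv, inv_inv]
      calc b⁻¹ * a⁻¹ * x * (a * b) = b⁻¹ * (a⁻¹ * x * a) * b := by group
        _ = b⁻¹ * x * b := by rw [hcomm]
    rw [this]
    exact M.mul_mem (M.mul_mem (M.inv_mem (hBM hb)) hxM) (hBM hb)
  have hMB : M = B := by
    apply le_antisymm _ hBM
    intro m hm
    obtain ⟨a, ha, b, hb, hab⟩ := hAB m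
    have ham : a ∈ A ⊓ M := by
      refine ⟨ha, ?_⟩
      have : a = m * b⁻¹ := by rw [hab]; group
      rw [this]
      exact M.mul_mem hm (M.inv_mem (hBM hb))
    rw [hAM, Subgroup.mem_bot] at ham
    rw [hab, ham, one_mul]
    exact hb
  subst hMB
  rcases Nat.even_or_odd (Nat.card A) with hev | hodd
  · have hP := R3_aux (fun c => thmP c) A M hA hZ hM hK hAB hAM hev hns
    refine asm_lift (MonoidHom.id G) Function.surjective_id hP ?_
    rw [MonoidHom.ker_id]
    infer_instance
  · exfalso
    apply hns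
    haveI : Fact (Nat.Prime 2) := ⟨Nat.prime_two⟩
    have hcomp : A.IsComplement' M := by
      refine Subgroup.isComplement'_of_disjoint_and_mul_eq_univ (disjoint_iff.2 hAM) ?_
      rw [Set.eq_univ_iff_forall]
      intro g
      obtain ⟨a, ha, b, hb, hab⟩ := hAB g
      exact Set.mem_mul.2 ⟨a, ha, b, hb, hab.symm⟩
    have hcard : Nat.card A * Nat.card M = Nat.card G := hcomp.card_mul
    obtain ⟨P⟩ : Nonempty (Sylow 2 M) := inferInstance
    have hPc : IsCyclic P := by
      haveI := hZ
      infer_instance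
    by_cases h2 : 2 ∣ Nat.card G
    swap
    · apply hFT G
      rw [← Nat.not_even_iff_odd, even_iff_two_dvd]
      exact h2
    have hfac : (Nat.card G).factorization 2 = (Nat.card M).factorization 2 := by
      rw [← hcard, Nat.factorization_mul Nat.card_pos.ne' Nat.card_pos.ne', Finsupp.add_apply,
        Nat.factorization_eq_zero_of_not_dvd, zero_add]
      intro hd
      exact (Nat.not_even_iff_odd.2 hodd) (even_iff_two_dvd.2 hd)
    let T : Sylow 2 G := Sylow.ofCard ((P : Subgroup M).map M.subtype) (by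
      rw [Subgroup.card_map_of_injective M.subtype_injective, hfac]
      exact P.card_eq_multiplicity)
    have hTc : IsCyclic T := asm_cyc_map M.subtype (P : Subgroup M) hPc
    have hmin : (Nat.card G).minFac = 2 := (Nat.minFac_eq_two_iff _).mpr h2
    have hcm := IsCyclic.isComplement' hmin (P := T) hTc
    set N := (MonoidHom.transferSylow T (hTc.normalizer_le_centralizer hmin)).ker with hN
    have hcN : Nat.card N * Nat.card T = Nat.card G := hcm.card_mul
    have hTcard : Nat.card T = 2 ^ (Nat.card G).factorization 2 := T.card_eq_multiplicity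
    have hNodd : Odd (Nat.card N) := by
      rw [← Nat.not_even_iff_odd, even_iff_two_dvd]
      intro hd
      have h3 : 2 ^ ((Nat.card G).factorization 2 + 1) ∣ Nat.card N * Nat.card T := by
        rw [hTcard, pow_succ, mul_comm]
        exact mul_dvd_mul_right hd _
      rw [hcN] at h3
      exact Nat.pow_succ_factorization_not_dvd Nat.card_pos.ne' Nat.prime_two h3
    have hNs : Group.IsSolvable N := hFT N hNodd
    have hQ : Nat.card (G ⧸ N) = 2 ^ (Nat.card G).factorization 2 := by
      have h4 := Subgroup.card_eq_card_quotient_mul_card_subgroup N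
      rw [← hTcard]
      have h5 : 0 < Nat.card N := Nat.card_pos
      apply Nat.eq_of_mul_eq_mul_right h5
      rw [← h4, ← hcN, mul_comm]
    have hQs : Group.IsSolvable (G ⧸ N) := by
      have h6 : IsPGroup 2 (G ⧸ N) := IsPGroup.of_card hQ
      have := h6.isNilpotent
      infer_instance
    exact Group.isSolvable_of_ker_le_range N.subtype (QuotientGroup.mk' N) (by
        rw [QuotientGroup.ker_mk', Subgroup.range_subtype])

end Cfsg.Agent.Lib.AB68
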