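import Cfsg.Agent.Lib.AB68

/-! Piece P8c of S3252 (plan of helper68): helper23. -/

set_option autoImplicit false
set_option linter.all false

namespace Cfsg.Agent.Lib.AB68

open Equiv

universe u
variable {Ω : Type u}

theorem P8c_is {α : Type*} (g : Perm α) (x : α) : g⁻¹ (g x) = x := g.symm_apply_apply x

theorem P8c_si {α : Type*} (g : Perm α) (x : α) : g (g⁻¹ x) = x := g.apply_symm_apply x

theorem P8c_comm {P : Type*} [Group P] {A : Subgroup P} (hA : IsCyclic A) : ∀ x ∈ A, ∀ y ∈ A, x * y = y * x := by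
  intro x hx y hy
  obtain ⟨g, hg⟩ := hA.exists_generator
  obtain ⟨m, hm⟩ := hg ⟨x, hx⟩
  obtain ⟨n, hn⟩ := hg ⟨y, hy⟩
  have h1 : (⟨x, hx⟩ : A) * ⟨y, hy⟩ = ⟨y, hy⟩ * ⟨x, hx⟩ := by
    rw [← hm, ← hn]
    exact ((Commute.refl g).zpow_zpow m n)
  exact congrArg Subtype.val h1

theorem P8c_invol {P : Type*} [Group P] [Finite P] {A : Subgroup P} (hA : IsCyclic A) {x u : P} (hx : x ∈ A) (hu : u ∈ A)
    (hx2 : x * x = 1) (hu2 : u * u = 1) (hu1 : u ≠ 1) : x = 1 ∨ x = u := by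
  classical
  by_contra hcon
  push Not at hcon
  haveI : Fintype A := Fintype.ofFinite A
  have h1 := hA.card_pow_eq_one_le (n := 2) (by norm_num)
  have h3 : ({1, ⟨u, hu⟩, ⟨x, hx⟩} : Finset A) ⊆ Finset.univ.filter (fun a : A => a ^ 2 = 1) := by
    intro z hz
    simp only [Finset.mem_insert, Finset.mem_singleton] at hz
    simp only [Finset.mem_filter, Finset.mem_univ, true_and]
    rcases hz with rfl | rfl | rfl
    · exact one_pow 2
    · exact Subtype.ext (by simpa [pow_two] using hu2)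
    · exact Subtype.ext (by simpa [pow_two] using hx2)
  have h4 := Finset.card_le_card h3
  rw [Finset.card_insert_of_notMem, Finset.card_insert_of_notMem, Finset.card_singleton] at h4
  · omega
  · simp only [Finset.mem_singleton]
    intro h5
    exact hcon.2 (congrArg Subtype.val h5).symm
  · simp only [Finset.mem_insert, Finset.mem_singleton]
    rintro (h5 | h5)
    · exact hu1 (congrArg Subtype.val h5).symm
    · exact hcon.1 (congrArg Subtype.val h5).symm

/-- restriction to the fixed points -/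
def P8c_res (t : Perm Ω) : Subgroup.centralizer ({t} : Set (Perm Ω)) →* Perm {x : Ω // t x = x} where
  toFun g := (g : Perm Ω).subtypePerm (fun x => by
    have h : (g : Perm Ω) * t = t * g := Subgroup.mem_centralizer_singleton_iff.1 g.2
    have h1 : t ((g : Perm Ω) x) = (g : Perm Ω) (t x) := (Perm.ext_iff.1 h x).symm
    rw [h1]
    exact (g : Perm Ω).injective.eq_iff)
  map_one' := by ext; rfl
  map_mul' x y := by ext; rfl

theorem P8c_res_apply (t : Perm Ω) (g : Subgroup.centralizer ({t} : Set (Perm Ω))) (y : {x : Ω // t x = x}) :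
    ((P8c_res t g y : {x : Ω // t x = x}) : Ω) = (g : Perm Ω) y := rfl

theorem case8c_of {G A F D : Subgroup (Perm Ω)} {u : Perm Ω} {a : Ω} {t : Perm Ω} {p : ℕ}
    {G' : Subgroup (Perm {x : Ω // t x = x})} (h : T8 G A F D u a t p G')
    (hK : ∀ k ∈ G, (∀ x, t x = x → k x = x) → ∀ c ∈ G, c * t = t * c → k * c = c * k)
    (hV : ∀ (H : Subgroup (Perm {x : Ω // t x = x})), Sh3 H → Sw H → (∀ a b, a ≠ b → IsCyclic (st2 H a b)) →
      ∀ u ∈ H, (∀ x, u x ≠ x) → u * u = 1 → ∃ h ∈ H, h * u * h⁻¹ ≠ u ∧ (h * u * h⁻¹) * u = u * (h * u * h⁻¹))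
    (ht : ∃ x, (u * t) x = x) : False := by
  haveI := h.fd.c.hfin
  have huA := h.fd.huA
  have huG : u ∈ G := h.fd.c.hAG huA
  have htD' : t ∈ st2 G a (u a) := by rw [← h.fd.hD]; exact h.ht
  have htG : t ∈ G := htD'.1.1
  have hta : t a = a := htD'.1.2
  have htua : t (u a) = u a := htD'.2
  have hAc := P8c_comm h.fd.c.hA
  have hDc := P8c_comm h.fd.hDc
  have hu1 : u ≠ 1 := fun h1 => h.fd.huf a (by rw [h1]; rfl)
  have huu : ∀ x, u (u x) = x := fun x => Perm.ext_iff.1 h.fd.hu2 x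
  have htt : ∀ x, t (t x) = x := fun x => Perm.ext_iff.1 h.ht2 x
  have hmemD : ∀ g ∈ G, g a = a → g (u a) = u a → g ∈ D := by
    intro g hg h1 h2
    rw [h.fd.hD]; exact ⟨⟨hg, h1⟩, h2⟩
  have hE : ∀ w ∈ G, w a = a → w (u a) = u a → w * w = 1 → w ≠ 1 → w = t := by
    intro w hw h1 h2 h3 h4
    exact (h.htD w (hmemD w hw h1 h2) h3).resolve_left h4
  have hconj2 : ∀ (g w : Perm Ω), w * w = 1 → (g⁻¹ * w * g) * (g⁻¹ * w * g) = 1 := by
    intro g w hw
    calc (g⁻¹ * w * g) * (g⁻¹ * w * g) = g⁻¹ * (w * w) * g := by group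
      _ = 1 := by rw [hw]; group
  -- an element of `G` mapping `a, ua` to fixed points of `t` centralizes `t`
  have hcen : ∀ g ∈ G, t (g a) = g a → t (g (u a)) = g (u a) → g * t = t * g := by
    intro g hg h1 h2
    have h3 : g⁻¹ * t * g = t := by
      apply hE _ (G.mul_mem (G.mul_mem (G.inv_mem hg) htG) hg)
      · rw [Perm.mul_apply, Perm.mul_apply, h1, P8c_is]
      · rw [Perm.mul_apply, Perm.mul_apply, h2, P8c_is]
      · exact hconj2 g t h.ht2
      · intro h4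
        apply h.ht1
        calc t = g * (g⁻¹ * t * g) * g⁻¹ := by group
          _ = 1 := by rw [h4]; group
    calc g * t = g * (g⁻¹ * t * g) := by rw [h3]
      _ = t * g := by group
  have hcenA : ∀ e ∈ A, t (e a) = e a → e * t = t * e := by
    intro e he h1
    apply hcen e (h.fd.c.hAG he) h1
    have h2 : e (u a) = u (e a) := Perm.ext_iff.1 (hAc e he u huA) a
    have h3 : t (u (e a)) = u (t (e a)) := Perm.ext_iff.1 h.htu (e a)
    rw [h2, h3, h1]
  -- restriction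
  have hres : ∀ g ∈ G, ∀ hg : g * t = t * g,
      P8c_res t ⟨g, Subgroup.mem_centralizer_singleton_iff.2 hg⟩ ∈ G' := by
    intro g hgG hg
    rw [h.hG']
    exact ⟨g, hgG, hg, fun y => rfl⟩
  -- the two point stabilizers are cyclic
  have hcyc : ∀ x y : {x : Ω // t x = x}, x ≠ y → IsCyclic (st2 G' x y) := by
    intro x y hxy
    have hua : a ≠ u a := fun h1 => h.fd.huf a h1.symm
    obtain ⟨g, hg, hgx, hgy⟩ := h.fd.c.h2 a (u a) x y hua (fun h1 => hxy (Subtype.ext h1))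
    have hgt : g * t = t * g := hcen g hg (by rw [hgx]; exact x.2) (by rw [hgy]; exact y.2)
    obtain ⟨d, hd⟩ := h.fd.hDc.exists_generator
    have hdt : (d : Perm Ω) * t = t * d := hDc d d.2 t h.ht
    have hdD : (d : Perm Ω) ∈ st2 G a (u a) := by rw [← h.fd.hD]; exact d.2
    have hgt' : g⁻¹ * t = t * g⁻¹ := by
      calc g⁻¹ * t = g⁻¹ * (t * g) * g⁻¹ := by group
        _ = g⁻¹ * (g * t) * g⁻¹ := by rw [hgt]
        _ = t * g⁻¹ := by group
    have hc0 : (g * d * g⁻¹) * t = t * (g * d * g⁻¹) := by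
      calc (g * d * g⁻¹) * t = g * d * (g⁻¹ * t) := by group
        _ = g * (d * t) * g⁻¹ := by rw [hgt']; group
        _ = (g * t) * d * g⁻¹ := by rw [hdt]; group
        _ = t * (g * d * g⁻¹) := by rw [hgt]; group
    have hc0G : g * (d : Perm Ω) * g⁻¹ ∈ G := G.mul_mem (G.mul_mem hg hdD.1.1) (G.inv_mem hg)
    have hgx' : g⁻¹ x = a := by rw [Perm.inv_eq_iff_eq]; exact hgx.symm
    have hgy' : g⁻¹ y = u a := by rw [Perm.inv_eq_iff_eq]; exact hgy.symm
    have hmem : P8c_res t ⟨g * d * g⁻¹, Subgroup.mem_centralizer_singleton_iff.2 hc0⟩ ∈ st2 G' x y := by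
      refine ⟨⟨hres _ hc0G hc0, Subtype.ext ?_⟩, Subtype.ext ?_⟩
      · rw [P8c_res_apply]
        change g ((d : Perm Ω) (g⁻¹ x)) = x
        rw [hgx', hdD.1.2, hgx]
      · rw [P8c_res_apply]
        change g ((d : Perm Ω) (g⁻¹ y)) = y
        rw [hgy', hdD.2, hgy]
    refine ⟨⟨⟨_, hmem⟩, ?_⟩⟩
    rintro ⟨f', hf'⟩
    obtain ⟨f, hfG, hft, hff⟩ := (h.hG' f').1 hf'.1.1
    have hfx : f x = x := by rw [← hff, hf'.1.2]
    have hfy : f y = y := by rw [← hff, hf'.2]
    have hfD : g⁻¹ * f * g ∈ D := by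
      apply hmemD _ (G.mul_mem (G.mul_mem (G.inv_mem hg) hfG) hg)
      · rw [Perm.mul_apply, Perm.mul_apply, hgx, hfx, hgx']
      · rw [Perm.mul_apply, Perm.mul_apply, hgy, hfy, hgy']
    obtain ⟨m, hm⟩ := hd ⟨_, hfD⟩
    refine ⟨m, Subtype.ext ?_⟩
    have hm' : ((d : Perm Ω)) ^ m = g⁻¹ * f * g := congrArg Subtype.val hm
    have e1 : (g * (d : Perm Ω) * g⁻¹) ^ m = f := by
      rw [conj_zpow, hm']; group
    change (P8c_res t ⟨g * d * g⁻¹, Subgroup.mem_centralizer_singleton_iff.2 hc0⟩) ^ m = f'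
    rw [← map_zpow]
    ext z
    rw [P8c_res_apply]
    change ((g * (d : Perm Ω) * g⁻¹) ^ m) z = _
    rw [e1, hff]
  -- the restriction of `u`
  obtain ⟨u', hu'⟩ : ∃ u', u' = P8c_res t ⟨u, Subgroup.mem_centralizer_singleton_iff.2 h.htu.symm⟩ := ⟨_, rfl⟩
  have hu'v : ∀ y : {x : Ω // t x = x}, ((u' y : {x : Ω // t x = x}) : Ω) = u y := fun y => by rw [hu']; rfl
  have hu'G : u' ∈ G' := by rw [hu']; exact hres u huG h.htu.symm
  obtain ⟨h', hh'G, hne, hcom⟩ := hV G' h.h3 h.hsw hcyc u' hu'G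
    (fun x hx => h.fd.huf x (by rw [← hu'v, hx])) (by
      ext z
      rw [Perm.mul_apply, hu'v, hu'v, huu]; rfl)
  obtain ⟨g, hgG, hgt, hgv⟩ := (h.hG' h').1 hh'G
  -- the involution v
  obtain ⟨v, hv⟩ : ∃ v, v = g * (u * t) * g⁻¹ := ⟨_, rfl⟩
  have hvG : v ∈ G := by rw [hv]; exact G.mul_mem (G.mul_mem hgG (G.mul_mem huG htG)) (G.inv_mem hgG)
  have hut2 : (u * t) * (u * t) = 1 := by
    calc (u * t) * (u * t) = u * (t * u) * t := by group
      _ = (u * u) * (t * t) := by rw [h.htu]; group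
      _ = 1 := by rw [h.fd.hu2, h.ht2, one_mul]
  have hv2 : v * v = 1 := by
    rw [hv]
    calc g * (u * t) * g⁻¹ * (g * (u * t) * g⁻¹) = g * ((u * t) * (u * t)) * g⁻¹ := by group
      _ = 1 := by rw [hut2]; group
  have hgt' : g⁻¹ * t = t * g⁻¹ := by
    calc g⁻¹ * t = g⁻¹ * (t * g) * g⁻¹ := by group
      _ = g⁻¹ * (g * t) * g⁻¹ := by rw [hgt]
      _ = t * g⁻¹ := by group
  have hutt : (u * t) * t = t * (u * t) := by rw [← mul_assoc t u t, h.htu]
  have hvt : v * t = t * v := by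
    rw [hv]
    calc g * (u * t) * g⁻¹ * t = g * (u * t) * (g⁻¹ * t) := by group
      _ = g * ((u * t) * t) * g⁻¹ := by rw [hgt']; group
      _ = (g * t) * (u * t) * g⁻¹ := by rw [hutt]; group
      _ = t * (g * (u * t) * g⁻¹) := by rw [hgt]; group
  -- v on the fixed points
  have hvphi : ∀ y : {x : Ω // t x = x}, v y = ((h' * u' * h'⁻¹) y : {x : Ω // t x = x}) := by
    intro y
    obtain ⟨z, rfl⟩ := h'.surjective y
    have e1 : (h' * u' * h'⁻¹) (h' z) = h' (u' z) := by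
      rw [Perm.mul_apply, Perm.mul_apply, P8c_is]
    rw [e1, hgv, hgv, hu'v, hv]
    change g (u (t (g⁻¹ (g z)))) = g (u z)
    rw [P8c_is, z.2]
  have hvphi' : ∀ x, t x = x → t (v x) = v x := by
    intro x hx
    have := Perm.ext_iff.1 hvt x
    rw [Perm.mul_apply, Perm.mul_apply, hx] at this
    exact this.symm
  -- the commutator
  obtain ⟨k, hk⟩ : ∃ k, k = v * u * v⁻¹ * u⁻¹ := ⟨_, rfl⟩
  have hkG : k ∈ G := by
    rw [hk]; exact G.mul_mem (G.mul_mem (G.mul_mem hvG huG) (G.inv_mem hvG)) (G.inv_mem huG)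
  have hvu : ∀ x, t x = x → v (u x) = u (v x) := by
    intro x hx
    have e1 := hvphi (u' ⟨x, hx⟩)
    have e2 := hvphi ⟨x, hx⟩
    have e3 := Perm.ext_iff.1 hcom ⟨x, hx⟩
    rw [Perm.mul_apply, Perm.mul_apply u' (h' * u' * h'⁻¹)] at e3
    rw [hu'v] at e1
    rw [e1, e3, hu'v, ← e2]
  have hkphi : ∀ x, t x = x → k x = x := by
    intro x hx
    -- x = u (v y)
    obtain ⟨y, hy⟩ : ∃ y, y = v⁻¹ (u⁻¹ x) := ⟨_, rfl⟩
    have hxy : x = u (v y) := by rw [hy, P8c_si, P8c_si]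
    have hty : t y = y := by
      have hvi : v⁻¹ = v := inv_eq_of_mul_eq_one_left hv2
      have hui : u⁻¹ = u := inv_eq_of_mul_eq_one_left h.fd.hu2
      rw [hy, hvi, hui]
      apply hvphi'
      have := Perm.ext_iff.1 h.htu x
      rw [Perm.mul_apply, Perm.mul_apply, hx] at this
      exact this
    rw [hk]
    change v (u (v⁻¹ (u⁻¹ x))) = x
    rw [← hy, hvu y hty, ← hxy]
  have hku : k * u = u * k := hK k hkG hkphi u huG h.htu.symm
  have hku' : k * u = v * u * v⁻¹ := by rw [hk]; group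
  have hk2 : k * k = 1 := by
    have e1 : (k * u) * (k * u) = 1 := by
      rw [hku']
      calc v * u * v⁻¹ * (v * u * v⁻¹) = v * (u * u) * v⁻¹ := by group
        _ = 1 := by rw [h.fd.hu2]; group
    calc k * k = k * k * (u * u) := by rw [h.fd.hu2, mul_one]
      _ = k * (k * u) * u := by group
      _ = k * (u * k) * u := by rw [hku]
      _ = (k * u) * (k * u) := by group
      _ = 1 := e1
  rcases h.htD k (hmemD k hkG (hkphi a hta) (hkphi (u a) htua)) hk2 with hk1 | hkt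
  · -- v commutes with u
    have hvu' : v * u = u * v := by
      rw [hk1, one_mul] at hku'
      calc v * u = (v * u * v⁻¹) * v := by group
        _ = u * v := by rw [← hku']
    obtain ⟨x₀, hx₀⟩ := ht
    have hvx : v (g x₀) = g x₀ := by
      rw [hv, Perm.mul_apply, Perm.mul_apply, P8c_is, hx₀]
    obtain ⟨e, heA, hea⟩ := h.fd.c.hA1 a (g x₀)
    have heG := h.fd.c.hAG heA
    have heu : e (u a) = u (g x₀) := by
      have := Perm.ext_iff.1 (hAc e heA u huA) a
      rw [Perm.mul_apply, Perm.mul_apply, hea] at this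
      exact this
    have hvux : v (u (g x₀)) = u (g x₀) := by
      have := Perm.ext_iff.1 hvu' (g x₀)
      rw [Perm.mul_apply, Perm.mul_apply, hvx] at this
      exact this
    have hv1 : v ≠ 1 := by
      intro h1
      have e1 := hvphi (h' ⟨a, hta⟩)
      have e2 : (h' * u' * h'⁻¹) (h' ⟨a, hta⟩) = h' (u' ⟨a, hta⟩) := by
        rw [Perm.mul_apply, Perm.mul_apply, P8c_is]
      rw [e2, h1, Perm.one_apply] at e1
      have e3 := h'.injective (Subtype.ext e1)
      have e4 := congrArg Subtype.val e3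
      rw [hu'v] at e4
      exact h.fd.huf a e4.symm
    have hvt' : e⁻¹ * v * e = t := by
      apply hE _ (G.mul_mem (G.mul_mem (G.inv_mem heG) hvG) heG)
      · rw [Perm.mul_apply, Perm.mul_apply, hea, hvx, ← hea, P8c_is]
      · rw [Perm.mul_apply, Perm.mul_apply, heu, hvux, ← heu, P8c_is]
      · exact hconj2 e v hv2
      · intro h4
        apply hv1
        calc v = e * (e⁻¹ * v * e) * e⁻¹ := by group
          _ = 1 := by rw [h4]; group
    have hve : v = e * t * e⁻¹ := by rw [← hvt']; group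
    -- v commutes with C_A(t)
    have hvA : ∀ e₁ ∈ A, e₁ * t = t * e₁ → e₁ * v = v * e₁ := by
      intro e₁ h1 h2
      have c1 := hAc e₁ h1 e heA
      have c2 : e₁ * e⁻¹ = e⁻¹ * e₁ := hAc e₁ h1 e⁻¹ (A.inv_mem heA)
      rw [hve]
      calc e₁ * (e * t * e⁻¹) = (e₁ * e) * t * e⁻¹ := by group
        _ = e * (e₁ * t) * e⁻¹ := by rw [c1]; group
        _ = e * t * (e₁ * e⁻¹) := by rw [h2]; group
        _ = e * t * e⁻¹ * e₁ := by rw [c2]; group
    obtain ⟨e₁, he₁A, he₁⟩ := h.fd.c.hA1 a (v a)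
    have he₁t : e₁ * t = t * e₁ := hcenA e₁ he₁A (by rw [he₁]; exact hvphi' a hta)
    have hve₁ : ∀ y, t y = y → v y = e₁ y := by
      intro y hy
      obtain ⟨e₂, he₂A, he₂⟩ := h.fd.c.hA1 a y
      have he₂t := hcenA e₂ he₂A (by rw [he₂]; exact hy)
      have h1 := Perm.ext_iff.1 (hvA e₂ he₂A he₂t) a
      have h2 := Perm.ext_iff.1 (hAc e₁ he₁A e₂ he₂A) a
      rw [Perm.mul_apply, Perm.mul_apply] at h1 h2
      rw [← he₂, ← h1, ← he₁, ← h2]
    have he₁2 : e₁ * e₁ = 1 := by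
      have h1 : (e₁ * e₁) a = a := by
        rw [Perm.mul_apply, he₁, ← hve₁ _ (hvphi' a hta)]
        exact Perm.ext_iff.1 hv2 a
      ext z
      obtain ⟨e₃, he₃A, he₃⟩ := h.fd.c.hA1 a z
      have h2 := Perm.ext_iff.1 (hAc (e₁ * e₁) (A.mul_mem he₁A he₁A) e₃ he₃A) a
      rw [Perm.mul_apply, Perm.mul_apply e₃, h1, he₃] at h2
      exact h2
    rcases P8c_invol h.fd.c.hA he₁A huA he₁2 h.fd.hu2 hu1 with h1 | h1
    · have h2 := hve₁ (g a) (by
        have := hgv ⟨a, hta⟩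
        change _ = g a at this
        rw [← this]; exact (h' ⟨a, hta⟩).2)
      rw [h1, Perm.one_apply] at h2
      have h3 := hvphi (h' ⟨a, hta⟩)
      have e2 : (h' * u' * h'⁻¹) (h' ⟨a, hta⟩) = h' (u' ⟨a, hta⟩) := by
        rw [Perm.mul_apply, Perm.mul_apply, P8c_is]
      rw [e2, hgv, hgv, hu'v] at h3
      change v (g a) = g (u a) at h3
      rw [h2] at h3
      exact h.fd.huf a (g.injective h3).symm
    · apply hne
      ext y
      rw [← hvphi y, hve₁ y y.2, h1, hu'v]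
  · -- k = t
    obtain ⟨x₀, hx₀⟩ := ht
    have h1 : u * t = v * u * v⁻¹ := by rw [← hku', hku, hkt]
    rw [h1] at hx₀
    apply h.fd.huf (v⁻¹ x₀)
    have h2 : v (u (v⁻¹ x₀)) = x₀ := hx₀
    have h3 := congrArg (v⁻¹ : Perm Ω) h2
    rw [P8c_is] at h3
    exact h3

end Cfsg.Agent.Lib.AB68
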