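import Cfsg.Agent.Lib.AbAct

/-!
# Free inertial actions: 2-groups of rank at most two (helper77)
-/

set_option autoImplicit false
set_option linter.all false

namespace Cfsg.Agent.Lib.AbSec

open Cfsg Cfsg.Agent.Lib.BlockRing Cfsg.Agent.Lib.BlockGA Cfsg.Agent.Lib.BlockIdem
open Cfsg.Agent.Lib.BlkIdem Cfsg.Agent.Lib.BlockAlg Cfsg.Agent.Lib.PairAlg Cfsg.Agent.Lib.PairMax
open Cfsg.Agent.Lib.BrauerPairs Cfsg.Agent.Lib.NormalPBlk Cfsg.Agent.Lib.DefPairs
open Cfsg.Agent.Lib.BlkTransport Cfsg.Agent.Lib.BlkFus Cfsg.Agent.Lib.InducedPair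
open Cfsg.Agent.Lib.AbFusion Cfsg.Agent.Lib.AbCount

universe u v

variable {p : ℕ} [hp : Fact p.Prime] {M : Ideal AlgInt} [hMm : M.IsMaximal] [hchar : CharP (Kf M) p]
  {G : Type u} [Group G] [Finite G] {B : Set (IrrCharacter G)} {P : Subgroup G} {c : MonoidAlgebra (Kf M) G}

/-- a nontrivial 2-group with four solutions of `x^2=1` -/
theorem free_of_omega_le [Fact (Nat.Prime 2)] [CharP (Kf M) 2] (h : AbMax 2 B P c) (hP : P ≠ ⊥)
    (h4 : Nat.card {x : P // x ^ 2 = 1} ≤ 4) : FreeMax 2 B P c := by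
  refine ⟨h, hP, ?_⟩
  intro t ht x hx hx1 htx
  apply triv_of_omega h ht
  obtain ⟨n, hn⟩ := exists_pow_orderOf h hx hx1
  obtain ⟨z, hz⟩ : ∃ z, z = x ^ n := ⟨_, rfl⟩
  rw [← hz] at hn
  have hzP : z ∈ P := hz ▸ pow_mem hx n
  have htz : t * z * t⁻¹ = z := by rw [hz, ← conj_pow, htx]
  have hz1 : z ≠ 1 := by
    intro h'
    rw [h', orderOf_one] at hn
    omega
  have hz2 : z ^ 2 = 1 := by rw [← hn]; exact pow_orderOf_eq_one z
  intro y hy hy2
  by_cases hy1 : y = 1
  · rw [hy1]; group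
  by_cases hyz : y = z
  · rw [hyz]; exact htz
  have hcomm : ∀ x ∈ P, ∀ y ∈ P, x * y = y * x := fun x hx y hy =>
    (Subgroup.mem_centralizer_iff.1 (h.ab hy) x hx)
  -- the square of `t` fixes `y`
  have hall : ∀ w ∈ P, w ^ 2 = 1 → w = 1 ∨ w = z ∨ w = y ∨ w = z * y := by
    intro w hw hw2
    by_contra hcon
    push Not at hcon
    have hc : Commute z y := hcomm z hzP y hy
    let f : Fin 5 → {x : P // x ^ 2 = 1} := ![⟨⟨1, one_mem _⟩, by apply Subtype.ext; simp⟩,
      ⟨⟨z, hzP⟩, by apply Subtype.ext; simpa using hz2⟩, ⟨⟨y, hy⟩, by apply Subtype.ext; simpa using hy2⟩,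
      ⟨⟨z * y, mul_mem hzP hy⟩, by apply Subtype.ext; simp [hc.mul_pow, hz2, hy2]⟩,
      ⟨⟨w, hw⟩, by apply Subtype.ext; simpa using hw2⟩]
    have hzy1 : z * y ≠ 1 := by
      intro h'
      apply hyz
      have : z * z = 1 := by rw [← sq]; exact hz2
      exact mul_left_cancel (h'.trans this.symm)
    have hzyz : z * y ≠ z := fun h' => hy1 (mul_eq_left.1 h')
    have hzyy : z * y ≠ y := fun h' => hz1 (mul_eq_right.1 h')
    have hf : Function.Injective f := by
      intro i j hij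
      have hij' : ((f i).1 : G) = (f j).1 := by rw [hij]
      fin_cases i <;> fin_cases j <;> simp [f] at hij' <;> first | rfl | (exfalso; first
        | exact hz1 hij' | exact hz1 hij'.symm | exact hy1 hij' | exact hy1 hij'.symm
        | exact hzy1 hij' | exact hzy1 hij'.symm | exact hcon.1 hij' | exact hcon.1 hij'.symm
        | exact hyz hij' | exact hyz hij'.symm | exact hzyz hij' | exact hzyz hij'.symm
        | exact hcon.2.1 hij' | exact hcon.2.1 hij'.symm | exact hzyy hij' | exact hzyy hij'.symm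
        | exact hcon.2.2.1 hij' | exact hcon.2.2.1 hij'.symm | exact hcon.2.2.2 hij' | exact hcon.2.2.2 hij'.symm)
    have := Nat.card_le_card_of_injective f hf
    rw [Nat.card_eq_fintype_card, Fintype.card_fin] at this
    omega
  have hty : t * y * t⁻¹ = y ∨ t * y * t⁻¹ = z * y := by
    have h1 : t * y * t⁻¹ ∈ P := conj_mem_of_TT ht hy
    have h2 : (t * y * t⁻¹) ^ 2 = 1 := by rw [conj_pow, hy2]; group
    rcases hall _ h1 h2 with h3 | h3 | h3 | h3
    · exfalso
      apply hy1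
      have : y = t⁻¹ * (t * y * t⁻¹) * t := by group
      rw [this, h3]; group
    · exfalso
      apply hyz
      calc y = t⁻¹ * (t * y * t⁻¹) * t := by group
        _ = t⁻¹ * (t * z * t⁻¹) * t := by rw [h3, htz]
        _ = z := by group
    · exact Or.inl h3
    · exact Or.inr h3
  rcases hty with h3 | h3
  · exact h3
  · exfalso
    have ht2 : t ^ 2 * y * (t ^ 2)⁻¹ = y := by
      have e1 : t ^ 2 * y * (t ^ 2)⁻¹ = t * (t * y * t⁻¹) * t⁻¹ := by rw [sq]; group
      have e2 : t * (z * y) * t⁻¹ = (t * z * t⁻¹) * (t * y * t⁻¹) := by group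
      have : z * z = 1 := by rw [← sq]; exact hz2
      rw [e1, h3, e2, htz, h3, ← mul_assoc, this, one_mul]
    have ht2n : ∀ n : ℕ, (t ^ 2) ^ n * y * ((t ^ 2) ^ n)⁻¹ = y := by
      intro n
      induction n with
      | zero => simp
      | succ n ih =>
        have e1 : (t ^ 2) ^ (n + 1) * y * ((t ^ 2) ^ (n + 1))⁻¹ =
            t ^ 2 * ((t ^ 2) ^ n * y * ((t ^ 2) ^ n)⁻¹) * (t ^ 2)⁻¹ := by rw [pow_succ']; group
        rw [e1, ih, ht2]
    have hodd : ¬ 2 ∣ ei P c := not_dvd_ei h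
    obtain ⟨m, hm⟩ : ∃ m, ei P c = 2 * m + 1 := ⟨ei P c / 2, by omega⟩
    have h5 := Subgroup.mem_centralizer_iff.1 (pow_ei_mem h ht) y hy
    have h6 : t ^ ei P c * y * (t ^ ei P c)⁻¹ = y := by rw [← h5]; group
    have h7 : t ^ ei P c * y * (t ^ ei P c)⁻¹ = t * y * t⁻¹ := by
      have e1 : t ^ ei P c * y * (t ^ ei P c)⁻¹ = t * ((t ^ 2) ^ m * y * ((t ^ 2) ^ m)⁻¹) * t⁻¹ := by
        rw [hm, ← pow_mul, pow_succ']; group
      rw [e1, ht2n]
    rw [h7, h3] at h6
    exact hz1 (mul_eq_right.1 h6)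


/-- the inertial index is one or three -/
theorem ei_of_omega_le [Fact (Nat.Prime 2)] [CharP (Kf M) 2] (h : FreeMax 2 B P c)
    (h4 : Nat.card {x : P // x ^ 2 = 1} ≤ 4) : ei P c = 1 ∨ ei P c = 3 := by
  obtain ⟨x, hx, hx1⟩ : ∃ x ∈ P, x ≠ 1 := by
    by_contra hcon
    push Not at hcon
    exact h.ne ((Subgroup.eq_bot_iff_forall P).2 hcon)
  obtain ⟨n, hn⟩ := exists_pow_orderOf h.max hx hx1
  obtain ⟨z, hz⟩ : ∃ z : P, z = ⟨x ^ n, pow_mem hx n⟩ := ⟨_, rfl⟩
  have hzo : orderOf z = 2 := by rw [hz, Subgroup.orderOf_mk, hn]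
  have hz2 : z ^ 2 = 1 := by rw [← hzo]; exact pow_orderOf_eq_one z
  have hz1 : z ≠ 1 := by
    intro h'
    rw [h', orderOf_one] at hzo
    omega
  let Q := TT P c ⧸ (Cn P).subgroupOf (TT P c)
  let f : Option Q → {x : P // x ^ 2 = 1} := fun o => match o with
    | none => ⟨1, one_pow 2⟩
    | some q => ⟨au (Quotient.out q) z, by rw [← map_pow, hz2, map_one]⟩
  have hf : Function.Injective f := by
    have hne : ∀ t : TT P c, au t z ≠ 1 := by
      intro t h'
      apply hz1
      apply (au_bij t).1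
      rw [h', map_one]
    intro a b hab
    rcases a with _ | q <;> rcases b with _ | q'
    · rfl
    · exact absurd (congrArg Subtype.val hab).symm (hne _)
    · exact absurd (congrArg Subtype.val hab) (hne _)
    · have h1 : au (Quotient.out q) z = au (Quotient.out q') z := congrArg Subtype.val hab
      have h2 : q = q' := by
        rw [← QuotientGroup.out_eq' q, ← QuotientGroup.out_eq' q', QuotientGroup.eq, Subgroup.mem_subgroupOf,
          Subgroup.coe_mul, Subgroup.coe_inv]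
        apply h.free _ (mul_mem (inv_mem (Quotient.out q).2) (Quotient.out q').2) z z.2 (fun h' => hz1 (Subtype.ext h'))
        have h3 := congrArg Subtype.val h1
        rw [au_apply, au_apply] at h3
        calc ((Quotient.out q : TT P c) : G)⁻¹ * (Quotient.out q' : TT P c) * z *
              (((Quotient.out q : TT P c) : G)⁻¹ * (Quotient.out q' : TT P c))⁻¹ =
            ((Quotient.out q : TT P c) : G)⁻¹ * (((Quotient.out q' : TT P c) : G) * z * ((Quotient.out q' : TT P c) : G)⁻¹) *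
              (Quotient.out q : TT P c) := by group
          _ = z := by rw [← h3]; group
      rw [h2]
  have hcard := Nat.card_le_card_of_injective f hf
  rw [Finite.card_option] at hcard
  have he : ei P c = Nat.card Q := rfl
  have hodd := not_dvd_ei h.max
  have h0 := ei_ne_zero (P := P) (c := c)
  rw [← he] at hcard
  omega

end Cfsg.Agent.Lib.AbSec
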