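import Mathlib

/-!
# A weak Sylvester–Schur theorem (helper77)

`nt_main`: if `1 ≤ k`, `2 k ≤ m` and `r` is the largest prime divisor of `C(m,k)`, then `m % r < k % r`.
-/

set_option autoImplicit false

namespace AbSec.Alt

open Nat Finset

/-- number of primes `≤ j` -/
def np (j : ℕ) : ℕ := ((Finset.range (j + 1)).filter Nat.Prime).card

theorem np_succ_le (j : ℕ) : np (j + 1) ≤ np j + 1 := by
  unfold np
  rw [Finset.range_add_one (n := j + 1), Finset.filter_insert]
  split_ifs
  · exact Finset.card_insert_le _ _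
  · omega

theorem np_succ_of_not (j : ℕ) (h : ¬ (j + 1).Prime) : np (j + 1) = np j := by
  unfold np
  rw [Finset.range_add_one (n := j + 1), Finset.filter_insert, if_neg h]

theorem np_add_two (j : ℕ) (hj : 2 ≤ j) : np (j + 2) ≤ np j + 1 := by
  rcases Nat.even_or_odd j with he | ho
  · have h1 : ¬ (j + 1 + 1).Prime := by
      intro hp
      have h2 : Even (j + 1 + 1) := by
        obtain ⟨t, rfl⟩ := he
        exact ⟨t + 1, by ring⟩
      have := (hp.even_iff).1 h2
      omega
    rw [show j + 2 = j + 1 + 1 from rfl, np_succ_of_not _ h1]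
    exact np_succ_le j
  · have h1 : ¬ (j + 1).Prime := by
      intro hp
      have h2 : Even (j + 1) := ho.add_one
      have := (hp.even_iff).1 h2
      omega
    calc np (j + 2) ≤ np (j + 1) + 1 := np_succ_le (j + 1)
      _ = np j + 1 := by rw [np_succ_of_not _ h1]

theorem two_np_le : ∀ t : ℕ, 2 * np (8 + t) ≤ 8 + t := by
  intro t
  induction t using Nat.strong_induction_on with
  | _ t ih =>
    match t with
    | 0 => decide
    | 1 => decide
    | t + 2 =>
      have h1 := ih t (by omega)
      have h2 := np_add_two (8 + t) (by omega)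
      have h3 : 8 + (t + 2) = 8 + t + 2 := by ring
      rw [h3]
      omega

theorem desc_le (m j i : ℕ) (hij : i ≤ j) (hjm : j ≤ m) :
    m ^ i * j.descFactorial i ≤ j ^ i * m.descFactorial i := by
  induction i with
  | zero => simp
  | succ i ih =>
    have h1 := ih (by omega)
    rw [pow_succ, pow_succ, Nat.descFactorial_succ, Nat.descFactorial_succ]
    have h2 : m * (j - i) ≤ j * (m - i) := by
      have e1 : m * (j - i) = m * j - m * i := Nat.mul_sub m j i
      have e2 : j * (m - i) = j * m - j * i := Nat.mul_sub j m i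
      rw [e1, e2, mul_comm j m]
      exact Nat.sub_le_sub_left (Nat.mul_le_mul_right i hjm) _
    calc m ^ i * m * ((j - i) * j.descFactorial i) = (m * (j - i)) * (m ^ i * j.descFactorial i) := by ring
      _ ≤ (j * (m - i)) * (j ^ i * m.descFactorial i) := Nat.mul_le_mul h2 h1
      _ = j ^ i * j * ((m - i) * m.descFactorial i) := by ring

theorem desc_lt (m j i : ℕ) (hi : 2 ≤ i) (hij : i ≤ j) (hjm : j < m) :
    m ^ i * j.descFactorial i < j ^ i * m.descFactorial i := by
  obtain ⟨i, rfl⟩ : ∃ t, i = t + 1 := ⟨i - 1, by omega⟩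
  have h1 := desc_le m j i (by omega) hjm.le
  rw [pow_succ, pow_succ, Nat.descFactorial_succ, Nat.descFactorial_succ]
  have h2 : m * (j - i) < j * (m - i) := by
    have e1 : m * (j - i) = m * j - m * i := Nat.mul_sub m j i
    have e2 : j * (m - i) = j * m - j * i := Nat.mul_sub j m i
    rw [e1, e2, mul_comm j m]
    apply Nat.sub_lt_sub_left
    · rw [mul_comm j i, mul_comm m j]
      exact Nat.mul_lt_mul_of_lt_of_le (by omega) hjm.le (by omega)
    · exact Nat.mul_lt_mul_of_pos_right hjm (by omega)
  have h3 : 0 < m ^ i * j.descFactorial i := by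
    apply Nat.mul_pos (pow_pos (by omega) _)
    exact Nat.descFactorial_pos.2 (by omega)
  calc m ^ i * m * ((j - i) * j.descFactorial i) = (m * (j - i)) * (m ^ i * j.descFactorial i) := by ring
    _ < (j * (m - i)) * (j ^ i * m.descFactorial i) := Nat.mul_lt_mul_of_lt_of_le h2 h1 (by
        exact lt_of_lt_of_le h3 h1)
    _ = j ^ i * j * ((m - i) * m.descFactorial i) := by ring

theorem pow_lt_choose_mul (m j : ℕ) (hj : 2 ≤ j) (hjm : j < m) : m ^ j < j ^ j * m.choose j := by
  have h1 := desc_lt m j j hj le_rfl hjm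
  rw [Nat.descFactorial_self, Nat.descFactorial_eq_factorial_mul_choose] at h1
  have h2 : m ^ j * j ! < (j ^ j * m.choose j) * j ! := by
    calc m ^ j * j ! < j ^ j * (j ! * m.choose j) := h1
      _ = _ := by ring
  exact lt_of_mul_lt_mul_right h2 (Nat.zero_le _)

theorem pow_np_lt (m j : ℕ) (hj : 2 ≤ j) (hjm : j ^ 2 ≤ m) : m ^ np j < m.choose j := by
  have hjm' : j < m := by nlinarith
  rcases Nat.lt_or_ge j 8 with h8 | h8
  · have key : ∀ c f : ℕ, np j = c → j ! = f → f * m ^ c < m.descFactorial j → m ^ np j < m.choose j := by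
      intro c f hc hf h
      rw [Nat.descFactorial_eq_factorial_mul_choose, hf] at h
      rw [hc]
      exact lt_of_mul_lt_mul_left h (Nat.zero_le _)
    interval_cases j
    · apply key 1 2 (by decide) (by decide)
      obtain ⟨t, rfl⟩ : ∃ t, m = 4 + t := ⟨m - 4, by omega⟩
      simp only [Nat.descFactorial_succ, Nat.descFactorial_zero]
      have e0 : 4 + t - 0 = 4 + t := by omega
      have e1 : 4 + t - 1 = 3 + t := by omega
      rw [e0, e1]
      nlinarith
    · apply key 2 6 (by decide) (by decide)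
      obtain ⟨t, rfl⟩ : ∃ t, m = 9 + t := ⟨m - 9, by omega⟩
      simp only [Nat.descFactorial_succ, Nat.descFactorial_zero]
      have e0 : 9 + t - 0 = 9 + t := by omega
      have e1 : 9 + t - 1 = 8 + t := by omega
      have e2 : 9 + t - 2 = 7 + t := by omega
      rw [e0, e1, e2]
      ring_nf
      nlinarith [Nat.zero_le (t ^ 2), Nat.zero_le (t ^ 3)]
    · apply key 2 24 (by decide) (by decide)
      obtain ⟨t, rfl⟩ : ∃ t, m = 16 + t := ⟨m - 16, by omega⟩
      simp only [Nat.descFactorial_succ, Nat.descFactorial_zero]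
      have e0 : 16 + t - 0 = 16 + t := by omega
      have e1 : 16 + t - 1 = 15 + t := by omega
      have e2 : 16 + t - 2 = 14 + t := by omega
      have e3 : 16 + t - 3 = 13 + t := by omega
      rw [e0, e1, e2, e3]
      ring_nf
      nlinarith [Nat.zero_le (t ^ 2), Nat.zero_le (t ^ 3), Nat.zero_le (t ^ 4)]
    · apply key 3 120 (by decide) (by decide)
      obtain ⟨t, rfl⟩ : ∃ t, m = 25 + t := ⟨m - 25, by omega⟩
      simp only [Nat.descFactorial_succ, Nat.descFactorial_zero]
      have e0 : 25 + t - 0 = 25 + t := by omega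
      have e1 : 25 + t - 1 = 24 + t := by omega
      have e2 : 25 + t - 2 = 23 + t := by omega
      have e3 : 25 + t - 3 = 22 + t := by omega
      have e4 : 25 + t - 4 = 21 + t := by omega
      rw [e0, e1, e2, e3, e4]
      ring_nf
      nlinarith [Nat.zero_le (t ^ 2), Nat.zero_le (t ^ 3), Nat.zero_le (t ^ 4), Nat.zero_le (t ^ 5)]
    · apply key 3 720 (by decide) (by decide)
      obtain ⟨t, rfl⟩ : ∃ t, m = 36 + t := ⟨m - 36, by omega⟩
      simp only [Nat.descFactorial_succ, Nat.descFactorial_zero]
      have e0 : 36 + t - 0 = 36 + t := by omega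
      have e1 : 36 + t - 1 = 35 + t := by omega
      have e2 : 36 + t - 2 = 34 + t := by omega
      have e3 : 36 + t - 3 = 33 + t := by omega
      have e4 : 36 + t - 4 = 32 + t := by omega
      have e5 : 36 + t - 5 = 31 + t := by omega
      rw [e0, e1, e2, e3, e4, e5]
      ring_nf
      nlinarith [Nat.zero_le (t ^ 2), Nat.zero_le (t ^ 3), Nat.zero_le (t ^ 4), Nat.zero_le (t ^ 5), Nat.zero_le (t ^ 6)]
    · apply key 4 5040 (by decide) (by decide)
      obtain ⟨t, rfl⟩ : ∃ t, m = 49 + t := ⟨m - 49, by omega⟩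
      simp only [Nat.descFactorial_succ, Nat.descFactorial_zero]
      have e0 : 49 + t - 0 = 49 + t := by omega
      have e1 : 49 + t - 1 = 48 + t := by omega
      have e2 : 49 + t - 2 = 47 + t := by omega
      have e3 : 49 + t - 3 = 46 + t := by omega
      have e4 : 49 + t - 4 = 45 + t := by omega
      have e5 : 49 + t - 5 = 44 + t := by omega
      have e6 : 49 + t - 6 = 43 + t := by omega
      rw [e0, e1, e2, e3, e4, e5, e6]
      ring_nf
      nlinarith [Nat.zero_le (t ^ 2), Nat.zero_le (t ^ 3), Nat.zero_le (t ^ 4), Nat.zero_le (t ^ 5), Nat.zero_le (t ^ 6), Nat.zero_le (t ^ 7)]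
  · obtain ⟨t, rfl⟩ : ∃ t, j = 8 + t := ⟨j - 8, by omega⟩
    have h1 := two_np_le t
    set j := 8 + t with hj'
    have h2 := pow_lt_choose_mul m j hj hjm'
    have hm0 : 0 < m := by omega
    -- m^j * j^(2j) ≤ m^(2j) < (j^j * C)^2 = j^(2j) * C^2
    have h3 : m ^ j * j ^ (2 * j) < m.choose j ^ 2 * j ^ (2 * j) := by
      calc m ^ j * j ^ (2 * j) = m ^ j * (j ^ 2) ^ j := by rw [← pow_mul]
        _ ≤ m ^ j * m ^ j := Nat.mul_le_mul_left _ (Nat.pow_le_pow_left hjm j)
        _ = (m ^ j) ^ 2 := by ring
        _ < (j ^ j * m.choose j) ^ 2 := Nat.pow_lt_pow_left h2 (by norm_num)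
        _ = m.choose j ^ 2 * j ^ (2 * j) := by rw [mul_pow, ← pow_mul]; ring
    have h4 : m ^ j < m.choose j ^ 2 := lt_of_mul_lt_mul_right h3 (Nat.zero_le _)
    have h5 : (m ^ np j) ^ 2 ≤ m ^ j := by
      rw [← pow_mul]
      exact Nat.pow_le_pow_right hm0 (by omega)
    exact lt_of_pow_lt_pow_left₀ 2 (Nat.zero_le _) (lt_of_le_of_lt h5 h4)

theorem choose_le_pow (m k j : ℕ) (hkm : k ≤ m) (hm : 0 < m)
    (h : ∀ s : ℕ, s.Prime → s ∣ m.choose k → s ≤ j) : m.choose k ≤ m ^ np j := by
  have hc : m.choose k ≠ 0 := (Nat.choose_pos hkm).ne'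
  have h1 : (m.choose k).factorization.prod (fun p e => p ^ e) = m.choose k := Nat.prod_factorization_pow_eq_self hc
  rw [← h1]
  unfold Finsupp.prod
  have h2 : (m.choose k).factorization.support ⊆ (Finset.range (j + 1)).filter Nat.Prime := by
    intro p hp
    rw [Nat.support_factorization, Nat.mem_primeFactors] at hp
    rw [Finset.mem_filter, Finset.mem_range]
    exact ⟨by have := h p hp.1 hp.2.1; omega, hp.1⟩
  calc ∏ p ∈ (m.choose k).factorization.support, p ^ (m.choose k).factorization p
      ≤ ∏ _p ∈ (m.choose k).factorization.support, m :=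
        Finset.prod_le_prod' (fun p _ => Nat.pow_factorization_choose_le hm)
    _ = m ^ ((m.choose k).factorization.support).card := by rw [Finset.prod_const]
    _ ≤ m ^ np j := Nat.pow_le_pow_right hm (Finset.card_le_card h2)

theorem choose_mono_half (m j k : ℕ) (hjk : j ≤ k) (hkm : 2 * k ≤ m) : m.choose j ≤ m.choose k := by
  induction k, hjk using Nat.le_induction with
  | base => exact le_rfl
  | succ k hk' ih => exact (ih (by omega)).trans (Nat.choose_le_succ_of_lt_half_left (by omega))

theorem nt_main {m k r : ℕ} (hk : 1 ≤ k) (hkm : 2 * k ≤ m) (hr : r.Prime) (hrd : r ∣ m.choose k)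
    (hmax : ∀ s : ℕ, s.Prime → s ∣ m.choose k → s ≤ r) : m % r < k % r ∧ (k < r ∨ m < r ^ 2) := by
  rcases Nat.lt_or_ge k r with hkr | hkr
  · -- r > k
    refine ⟨?_, Or.inl hkr⟩
    rw [Nat.mod_eq_of_lt hkr]
    have h1 : r ∣ m.descFactorial k := by
      rw [Nat.descFactorial_eq_factorial_mul_choose]
      exact Dvd.dvd.mul_left hrd _
    have h2 : ∀ i : ℕ, i ≤ k → r ∣ m.descFactorial i → ∃ t < i, r ∣ m - t := by
      intro i
      induction i with
      | zero =>
        intro _ h
        rw [Nat.descFactorial_zero, Nat.dvd_one] at h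
        exact absurd h hr.ne_one
      | succ i ih =>
        intro hi h
        rw [Nat.descFactorial_succ, hr.dvd_mul] at h
        rcases h with h | h
        · exact ⟨i, by omega, h⟩
        · obtain ⟨t, ht, h3⟩ := ih (by omega) h
          exact ⟨t, by omega, h3⟩
    obtain ⟨t, ht, h3⟩ := h2 k le_rfl h1
    obtain ⟨q, hq⟩ := h3
    have h4 : m = t + r * q := by omega
    rw [h4, Nat.add_mul_mod_self_left, Nat.mod_eq_of_lt (by omega)]
    exact ht
  · have hm0 : 0 < m := by have := hr.two_le; omega
    have hlt : m < r ^ 2 := by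
      by_contra hcon
      push Not at hcon
      set j := min k (Nat.sqrt m) with hj
      have hrj : r ≤ j := le_min hkr (Nat.le_sqrt'.2 hcon)
      have hj2 : 2 ≤ j := le_trans hr.two_le hrj
      have hjs : j ^ 2 ≤ m := Nat.le_sqrt'.1 (min_le_right _ _)
      have h1 := pow_np_lt m j hj2 hjs
      have h2 := choose_le_pow m k j (by omega) hm0 (fun s hs hd => (hmax s hs hd).trans hrj)
      have h3 : m.choose j ≤ m.choose k := by
        exact choose_mono_half m j k (min_le_left _ _) hkm
      omega
    refine ⟨?_, Or.inr hlt⟩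
    have h1 := Nat.factorization_choose (p := r) (n := m) (k := k) (b := 2) hr (by omega) (by
      exact Nat.log_lt_of_lt_pow (by omega) hlt)
    have h2 : (m.choose k).factorization r ≠ 0 := by
      intro h0
      rw [Nat.factorization_eq_zero_iff] at h0
      rcases h0 with h0 | h0 | h0
      · exact h0 hr
      · exact h0 hrd
      · exact (Nat.choose_pos (by omega : k ≤ m)).ne' h0
    rw [h1] at h2
    have h3 : ∃ i ∈ Finset.Ico 1 2, r ^ i ≤ k % r ^ i + (m - k) % r ^ i := by
      by_contra hcon
      push Not at hcon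
      apply h2
      rw [Finset.card_eq_zero, Finset.filter_eq_empty_iff]
      intro i hi
      exact not_le.2 (hcon i hi)
    obtain ⟨i, hi, h4⟩ := h3
    have hi1 : i = 1 := by
      rw [Finset.mem_Ico] at hi; omega
    subst hi1
    rw [pow_one] at h4
    have h5 : m % r = (k % r + (m - k) % r) % r := by
      rw [← Nat.add_mod]
      congr 1
      omega
    have h6 : (m - k) % r < r := Nat.mod_lt _ hr.pos
    have h7 : k % r < r := Nat.mod_lt _ hr.pos
    rw [h5, Nat.mod_eq_sub_mod h4, Nat.mod_eq_of_lt (by omega)]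
    omega

end AbSec.Alt
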