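import Cfsg.Agent.Lib.AbAlt1
import Cfsg.Agent.S0713

/-!
# Derangements of largest prime order in primitive actions of `A_m ≤ Γ ≤ S_m` (helper77)
-/

set_option autoImplicit false

namespace AbSec.Alt

open Equiv Equiv.Perm Subgroup MulAction
open scoped Pointwise

variable {m : ℕ}

/-- A permutation with all cycles of length `r` and `m % r` fixed points. -/
theorem exists_elt {r : ℕ} (hr : r.Prime) (hrm : r ≤ m) (h2 : r = 2 → Even (m / 2)) :
    ∃ g : Perm (Fin m), g ∈ alternatingGroup (Fin m) ∧ orderOf g = r ∧ g.support.card = (m / r) * r := by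
  have hpos : 0 < m / r := Nat.div_pos hrm hr.pos
  obtain ⟨g, hg⟩ := (Equiv.Perm.exists_with_cycleType_iff (α := Fin m) (m := Multiset.replicate (m / r) r)).2 (by
    constructor
    · rw [Multiset.sum_replicate, smul_eq_mul, Fintype.card_fin]
      exact Nat.div_mul_le_self m r
    · intro a ha
      rw [Multiset.eq_of_mem_replicate ha]
      exact hr.two_le)
  refine ⟨g, ?_, ?_, ?_⟩
  · rw [Equiv.Perm.mem_alternatingGroup, Equiv.Perm.sign_of_cycleType, hg, Multiset.sum_replicate,
      Multiset.card_replicate, smul_eq_mul]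
    apply Even.neg_one_pow
    rcases hr.eq_two_or_odd' with h | h
    · have h3 := h2 h
      rw [h]
      exact Even.add (even_two.mul_left _) h3
    · have : m / r * r + m / r = m / r * (r + 1) := by ring
      rw [this]
      exact (h.add_one).mul_left _
  · have h1 : orderOf g ∣ r := by
      rw [← Equiv.Perm.lcm_cycleType, hg, Multiset.lcm_dvd]
      intro a ha
      rw [Multiset.eq_of_mem_replicate ha]
    rcases (Nat.dvd_prime hr).1 h1 with h | h
    · exfalso
      rw [orderOf_eq_one_iff] at h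
      rw [h, Equiv.Perm.cycleType_one] at hg
      have := congrArg Multiset.card hg
      rw [Multiset.card_replicate, Multiset.card_zero] at this
      omega
    · exact h
  · rw [← Equiv.Perm.sum_cycleType, hg, Multiset.sum_replicate, smul_eq_mul]

theorem mod_le_of_stab {r : ℕ} (hr : r.Prime) {g : Perm (Fin m)} (hg : g ^ r = 1)
    (hs : g.support.card = (m / r) * r) {D : Finset (Fin m)} (hD : ∀ x ∈ D, g x ∈ D) :
    D.card % r ≤ m % r := by
  classical
  have hfact : Fact r.Prime := ⟨hr⟩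
  let f : Function.End D := fun x => ⟨g x, hD x x.2⟩
  have hf : f ^ r ^ 1 = 1 := by
    rw [pow_one]
    have key : ∀ (n : ℕ) (x : D), (((f ^ n) x : D) : Fin m) = (g ^ n) (x : Fin m) := by
      intro n
      induction n with
      | zero => intro x; rfl
      | succ n ih =>
        intro x
        rw [pow_succ, pow_succ]
        show (((f ^ n) (f x) : D) : Fin m) = (g ^ n) (g x)
        rw [ih (f x)]
    funext x
    apply Subtype.ext
    rw [key r x, hg]
    rfl
  have h1 := Equiv.Perm.card_fixedPoints_modEq (p := r) (n := 1) hf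
  have h2 : Fintype.card (Function.fixedPoints f) ≤ m % r := by
    have h3 : Fintype.card (Function.fixedPoints f) ≤ (g.supportᶜ).card := by
      rw [← Fintype.card_coe]
      apply Fintype.card_le_of_injective (fun x : Function.fixedPoints f => (⟨((x : D) : Fin m), by
        rw [Finset.mem_compl, Equiv.Perm.notMem_support]
        have := x.2
        exact congrArg Subtype.val this⟩ : ↥(g.supportᶜ)))
      intro x y h
      have := congrArg Subtype.val h
      exact Subtype.ext (Subtype.ext this)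
    rw [Finset.card_compl, hs, Fintype.card_fin] at h3
    have h4 : m / r * r + m % r = m := Nat.div_add_mod' m r
    omega
  have h3 : m % r < r := Nat.mod_lt _ hr.pos
  rw [Fintype.card_coe] at h1
  unfold Nat.ModEq at h1
  rw [h1]
  exact (Nat.mod_le _ _).trans h2

theorem perm_eq_one_of_card_lt {S : Type*} [Finite S] (s : Perm S) {q : ℕ} (hq : q.Prime) (h : s ^ q = 1)
    (hc : Nat.card S < q) : s = 1 := by
  classical
  rcases (Nat.dvd_prime hq).1 (orderOf_dvd_of_pow_eq_one h) with h1 | h1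
  · exact orderOf_eq_one_iff.1 h1
  · exfalso
    have h2 : orderOf s ∣ Nat.card (Perm S) := orderOf_dvd_natCard s
    rw [h1, Nat.card_perm, hq.dvd_factorial] at h2
    omega

theorem imprim_prime {H : Subgroup (Perm (Fin m))} [IsPretransitive H (Fin m)] {B : Set (Fin m)}
    (hB : IsBlock H B) (hnt : ¬ IsTrivialBlock B) {q : ℕ} (hq : q.Prime) (h2q : m < 2 * q)
    {x : Perm (Fin m)} (hxH : x ∈ H) (hx : x ^ q = 1) : x = 1 := by
  classical
  have hB1 : ¬ B.Subsingleton := fun h => hnt (Or.inl h)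
  have hB2 : B ≠ Set.univ := fun h => hnt (Or.inr h)
  have hc1 : 2 * Set.ncard (orbit H B) ≤ m := by
    by_contra hcon
    push Not at hcon
    apply hB1
    apply hB.subsingleton_of_card_lt
    rw [Nat.card_eq_fintype_card, Fintype.card_fin]
    exact hcon
  have hc2 : Set.ncard B * 2 ≤ m := by
    by_contra hcon
    push Not at hcon
    apply hB2
    apply hB.eq_univ_of_card_lt
    rw [Nat.card_eq_fintype_card, Fintype.card_fin]
    exact hcon
  set X : H := ⟨x, hxH⟩ with hX
  have hXq : X ^ q = 1 := Subtype.ext hx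
  -- action on the blocks is trivial
  have h1 : (MulAction.toPermHom H (orbit H B) X) = 1 := by
    apply perm_eq_one_of_card_lt _ hq
    · rw [← map_pow, hXq, map_one]
    · have : Nat.card (orbit H B) = Set.ncard (orbit H B) := rfl
      omega
  obtain ⟨b, hb⟩ : B.Nonempty := by
    by_contra h
    rw [Set.not_nonempty_iff_eq_empty] at h
    apply hB1
    rw [h]; exact Set.subsingleton_empty
  ext a
  congr 1
  obtain ⟨h, ha⟩ := exists_smul_eq H b a
  have h2 : X • (h • B) = h • B := by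
    have h3 := congrArg (fun s : Perm (orbit H B) => s ⟨h • B, mem_orbit _ _⟩) h1
    have h4 := congrArg Subtype.val h3
    exact h4
  have haD : a ∈ h • B := by
    rw [← ha]; exact Set.smul_mem_smul_set hb
  have hstab : X ∈ stabilizer H (h • B) := h2
  have h5 : ∀ y : Fin m, y ∈ h • B ↔ x y ∈ h • B := by
    intro y
    constructor
    · intro hy
      have : X • y ∈ X • (h • B) := Set.smul_mem_smul_set hy
      rw [h2] at this
      exact this
    · intro hy
      have : X • y ∈ X • (h • B) := by rw [h2]; exact hy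
      exact (Set.smul_mem_smul_set_iff).1 this
  have h6 : x.subtypePerm (p := fun y => y ∈ h • B) (fun y => (h5 y).symm) = 1 := by
    apply perm_eq_one_of_card_lt _ hq
    · rw [Equiv.Perm.subtypePerm_pow]
      ext y
      simp [hx]
    · have h7 : Nat.card {y : Fin m // y ∈ h • B} = Set.ncard (h • B) := rfl
      have h8 : Set.ncard (h • B) = Set.ncard B := Set.ncard_smul_set h B
      rw [h7, h8]
      omega
  have h9 := congrArg (fun s : Perm {y : Fin m // y ∈ h • B} => ((s ⟨a, haD⟩ : {y : Fin m // y ∈ h • B}) : Fin m)) h6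
  simpa using h9

theorem not_sq_dvd {r : ℕ} (hr : r.Prime) (h2 : m < 2 * r) : ¬ r ^ 2 ∣ m.factorial := by
  intro h
  have hlog : Nat.log r m < 2 := by
    apply Nat.log_lt_of_lt_pow' (by norm_num)
    have := hr.two_le
    nlinarith
  rw [Nat.Prime.pow_dvd_factorial_iff hr hlog] at h
  have : m / r < 2 := by
    rw [Nat.div_lt_iff_lt_mul hr.pos]; exact h2
  simp at h
  omega

theorem card_mul_rel {Γ H : Subgroup (Perm (Fin m))} (hH : H ≤ Γ) :
    Nat.card H * H.relIndex Γ = Nat.card Γ := by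
  rw [Subgroup.relIndex, ← Subgroup.card_mul_index (H.subgroupOf Γ)]
  congr 1
  exact (Nat.card_congr (Subgroup.subgroupOfEquivOfLe hH).toEquiv).symm

theorem card_dvd_factorial (Γ : Subgroup (Perm (Fin m))) : Nat.card Γ ∣ m.factorial := by
  have h1 := Subgroup.card_subgroup_dvd_card Γ
  rwa [Nat.card_perm, Nat.card_eq_fintype_card (α := Fin m), Fintype.card_fin] at h1

theorem L0 {Γ H : Subgroup (Perm (Fin m))} (hH : H ≤ Γ) {r : ℕ} (hr : r.Prime) (hrd : r ∣ H.relIndex Γ)
    (h2r : m < 2 * r) : ∃ x ∈ Γ, orderOf x = r ∧ ∀ g ∈ Γ, g * x * g⁻¹ ∉ H := by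
  have hfact : Fact r.Prime := ⟨hr⟩
  have h1 := card_mul_rel hH
  obtain ⟨x, hx⟩ := exists_prime_orderOf_dvd_card' (G := Γ) r (by rw [← h1]; exact Dvd.dvd.mul_left hrd _)
  refine ⟨x, x.2, by rwa [Subgroup.orderOf_coe], ?_⟩
  intro g hg hmem
  have h2 : orderOf (g * (x : Perm (Fin m)) * g⁻¹) = r := by
    have : g * (x : Perm (Fin m)) * g⁻¹ = MulAut.conj g (x : Perm (Fin m)) := rfl
    rw [this, MulEquiv.orderOf_eq, Subgroup.orderOf_coe, hx]
  have h3 : r ∣ Nat.card H := by
    rw [← h2]; exact Subgroup.orderOf_dvd_natCard H hmem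
  apply not_sq_dvd hr h2r
  refine dvd_trans ?_ (card_dvd_factorial Γ)
  rw [← h1, pow_two]
  exact mul_dvd_mul h3 hrd

theorem exists_alt_smul {D E : Finset (Fin m)} (hm : 5 ≤ m) (hc : D.card = E.card) (h2 : 2 * D.card ≤ m) :
    ∃ g : Perm (Fin m), g ∈ alternatingGroup (Fin m) ∧ g • D = E := by
  classical
  let e : {x // x ∈ D} ≃ {x // x ∈ E} := Finset.equivOfCardEq hc
  let s : Perm (Fin m) := e.extendSubtype
  have hs : s • D = E := by
    apply Finset.eq_of_subset_of_card_le
    · intro y hy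
      obtain ⟨x, hx, rfl⟩ := Finset.mem_smul_finset.1 hy
      exact e.extendSubtype_mem x hx
    · rw [Finset.card_smul_finset, hc]
  by_cases h : s ∈ alternatingGroup (Fin m)
  · exact ⟨s, h, hs⟩
  · have h3 : 1 < (Dᶜ).card := by
      rw [Finset.card_compl, Fintype.card_fin]; omega
    obtain ⟨a, ha, b, hb, hab⟩ := Finset.one_lt_card.1 h3
    refine ⟨s * swap a b, ?_, ?_⟩
    · rw [Equiv.Perm.mem_alternatingGroup] at h ⊢
      rw [Equiv.Perm.sign_mul, Equiv.Perm.sign_swap hab]
      rcases Int.units_eq_one_or (sign s) with h4 | h4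
      · exact absurd h4 h
      · rw [h4]; rfl
    · rw [mul_smul]
      have h4 : swap a b • D = D := by
        apply Finset.eq_of_subset_of_card_le
        · intro y hy
          obtain ⟨x, hx, rfl⟩ := Finset.mem_smul_finset.1 hy
          rw [Finset.mem_compl] at ha hb
          have : swap a b x = x := swap_apply_of_ne_of_ne (fun e => ha (e ▸ hx)) (fun e => hb (e ▸ hx))
          rw [Equiv.Perm.smul_def, this]; exact hx
        · rw [Finset.card_smul_finset]
      rw [h4, hs]

theorem relIndex_stab {Γ : Subgroup (Perm (Fin m))} (hm : 5 ≤ m) (hA : alternatingGroup (Fin m) ≤ Γ)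
    {D : Finset (Fin m)} (h2 : 2 * D.card ≤ m) :
    (MulAction.stabilizer (Perm (Fin m)) D).relIndex Γ = m.choose D.card := by
  classical
  have h1 : (MulAction.stabilizer (Perm (Fin m)) D).subgroupOf Γ = MulAction.stabilizer Γ D := by
    ext g
    rw [Subgroup.mem_subgroupOf, MulAction.mem_stabilizer_iff, MulAction.mem_stabilizer_iff]
    rfl
  rw [Subgroup.relIndex, h1, MulAction.index_stabilizer]
  have h3 : (orbit Γ D : Set (Finset (Fin m))) = ((Finset.univ.powersetCard D.card : Finset (Finset (Fin m))) : Set (Finset (Fin m))) := by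
    ext E
    rw [Finset.mem_coe, Finset.mem_powersetCard_univ]
    constructor
    · rintro ⟨g, rfl⟩
      exact Finset.card_smul_finset (g : Perm (Fin m)) D
    · intro hE
      obtain ⟨g, hg, h4⟩ := exists_alt_smul hm hE.symm h2
      exact ⟨⟨g, hA hg⟩, h4⟩
  rw [h3, Set.ncard_coe_finset, Finset.card_powersetCard, Finset.card_univ, Fintype.card_fin]

theorem caseA {Γ H : Subgroup (Perm (Fin m))} (hm : 5 ≤ m) (hA : alternatingGroup (Fin m) ≤ Γ) (hH : H ≤ Γ)
    (hmax : ∀ K : Subgroup (Perm (Fin m)), H ≤ K → K ≤ Γ → K = H ∨ K = Γ)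
    {r : ℕ} (hr : r.Prime) (hrd : r ∣ H.relIndex Γ)
    (hrm : ∀ s : ℕ, s.Prime → s ∣ H.relIndex Γ → s ≤ r)
    (D : Finset (Fin m)) (hD : ∀ h ∈ H, h • D = D) (h1 : D.Nonempty) (h2 : 2 * D.card ≤ m) :
    ∃ x ∈ Γ, orderOf x = r ∧ ∀ g ∈ Γ, g * x * g⁻¹ ∉ H := by
  classical
  have hk : 1 ≤ D.card := Finset.one_le_card.2 h1
  have hidx := relIndex_stab hm hA h2
  have hHe : H = Γ ⊓ MulAction.stabilizer (Perm (Fin m)) D := by
    rcases hmax (Γ ⊓ MulAction.stabilizer (Perm (Fin m)) D) (le_inf hH (fun h hh => hD h hh)) inf_le_left with h | h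
    · exact h.symm
    · exfalso
      have h3 : Γ ≤ MulAction.stabilizer (Perm (Fin m)) D := inf_eq_left.1 h
      rw [Subgroup.relIndex_eq_one.2 h3] at hidx
      have h4 : 1 < m.choose D.card := by
        have h5 := choose_mono_half m 1 D.card hk h2
        rw [Nat.choose_one_right] at h5
        omega
      omega
  have hidx' : H.relIndex Γ = m.choose D.card := by
    rw [hHe, inf_comm, Subgroup.inf_relIndex_right, hidx]
  rw [hidx'] at hrd
  have hrm' : ∀ s : ℕ, s.Prime → s ∣ m.choose D.card → s ≤ r := by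
    intro s hs hd
    apply hrm s hs
    rw [hidx']; exact hd
  obtain ⟨hmod, hor⟩ := nt_main hk h2 hr hrd hrm'
  have hrle : r ≤ m := by
    have : r ∣ m.factorial := by
      refine dvd_trans hrd ?_
      rw [← Nat.choose_mul_factorial_mul_factorial (by omega : D.card ≤ m), mul_assoc]
      exact Dvd.intro _ rfl
    exact (hr.dvd_factorial).1 this
  obtain ⟨x, hxA, hxo, hxs⟩ := exists_elt hr hrle (by
    intro hr2
    subst hr2
    have hk1 : D.card = 1 := by
      rcases hor with h | h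
      · omega
      · omega
    rw [hk1] at hmod hrm'
    rw [Nat.choose_one_right] at hrm'
    by_contra hcon
    rw [Nat.not_even_iff_odd] at hcon
    have h3 : m / 2 ≠ 1 := by omega
    have h4 := Nat.minFac_prime h3
    have h5 := hrm' _ h4 (dvd_trans (Nat.minFac_dvd (m / 2)) (Nat.div_dvd_of_dvd (show 2 ∣ m by omega)))
    have h6 := h4.two_le
    have h7 : (m / 2).minFac = 2 := by omega
    have h8 := Nat.minFac_dvd (m / 2)
    rw [h7] at h8
    obtain ⟨t, ht⟩ := hcon
    omega)
  refine ⟨x, hA hxA, hxo, ?_⟩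
  intro g hg hmem
  have h3 : (g * x * g⁻¹) • D = D := hD _ hmem
  have h4 : (g * x * g⁻¹) ^ r = 1 := by
    rw [conj_pow, ← hxo, pow_orderOf_eq_one, mul_one, mul_inv_cancel]
  have h5 := mod_le_of_stab hr h4 (by rw [Equiv.Perm.card_support_conj]; exact hxs) (D := D) (by
    intro y hy
    rw [← h3]
    exact Finset.smul_mem_smul_finset hy)
  omega

theorem caseB {Γ H : Subgroup (Perm (Fin m))} (hm : 5 ≤ m) (hA : alternatingGroup (Fin m) ≤ Γ) (hH : H ≤ Γ)
    {r : ℕ} (hr : r.Prime) (hrd : r ∣ H.relIndex Γ)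
    (hrm : ∀ s : ℕ, s.Prime → s ∣ H.relIndex Γ → s ≤ r) [IsPretransitive H (Fin m)]
    {B : Set (Fin m)} (hB : IsBlock H B) (hnt : ¬ IsTrivialBlock B) :
    ∃ x ∈ Γ, orderOf x = r ∧ ∀ g ∈ Γ, g * x * g⁻¹ ∉ H := by
  obtain ⟨q, hq, hq1, hq2⟩ := Nat.exists_prime_lt_and_le_two_mul ((m + 1) / 2) (by omega)
  have hqm : q ≤ m := by
    rcases Nat.lt_or_ge m q with h | h
    · exfalso
      have : q = m + 1 := by omega
      have h3 : 2 ∣ q := ⟨(m + 1) / 2, by omega⟩
      have h4 := (Nat.prime_dvd_prime_iff_eq Nat.prime_two hq).1 h3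
      omega
    · exact h
  have h2q : m < 2 * q := by omega
  have hq3 : q ≠ 2 := by omega
  have hfq : Fact q.Prime := ⟨hq⟩
  have h1 : ¬ q ∣ Nat.card H := by
    intro h
    obtain ⟨x, hx⟩ := exists_prime_orderOf_dvd_card' (G := H) q h
    have h2 : (x : Perm (Fin m)) = 1 := imprim_prime hB hnt hq h2q x.2 (by
      rw [← hx, ← Subgroup.orderOf_coe]; exact pow_orderOf_eq_one _)
    have h3 : x = 1 := Subtype.ext h2
    rw [h3, orderOf_one] at hx
    exact hq.one_lt.ne hx
  have h2 : q ∣ Nat.card Γ := by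
    obtain ⟨x, hxA, hxo, _⟩ := exists_elt hq hqm (fun h => absurd h hq3)
    rw [← hxo]
    exact Subgroup.orderOf_dvd_natCard Γ (hA hxA)
  rw [← card_mul_rel hH] at h2
  have h3 : q ∣ H.relIndex Γ := (hq.dvd_mul.1 h2).resolve_left h1
  have h4 := hrm q hq h3
  exact L0 hH hr hrd (by omega)

theorem caseC {Γ H : Subgroup (Perm (Fin m))} (hm : 5 ≤ m) (hA : alternatingGroup (Fin m) ≤ Γ) (hH : H ≤ Γ)
    (hne : ¬ alternatingGroup (Fin m) ≤ H)
    {r : ℕ} (hr : r.Prime) (hrd : r ∣ H.relIndex Γ)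
    (hrm : ∀ s : ℕ, s.Prime → s ∣ H.relIndex Γ → s ≤ r) (hP : IsPreprimitive H (Fin m)) :
    ∃ x ∈ Γ, orderOf x = r ∧ ∀ g ∈ Γ, g * x * g⁻¹ ∉ H := by
  classical
  rcases Nat.lt_or_ge m (2 * r) with h2r | h2r
  · exact L0 hH hr hrd h2r
  rcases hr.eq_two_or_odd' with h2 | hodd
  · exfalso
    have h3 : ¬ 3 ∣ H.relIndex Γ := by
      intro h
      have := hrm 3 Nat.prime_three h
      omega
    have hf3 : Fact (Nat.Prime 3) := ⟨Nat.prime_three⟩
    obtain ⟨t, ht⟩ : ∃ t : Perm (Fin m), t.cycleType = {3} := by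
      rw [Equiv.Perm.exists_with_cycleType_iff]
      constructor
      · simp; omega
      · simp
    have ht3 : t.IsThreeCycle := ht
    have htA := ht3.mem_alternatingGroup
    let T : Γ := ⟨t, hA htA⟩
    let C : Subgroup Γ := zpowers T
    have hC : IsPGroup 3 C := by
      apply IsPGroup.of_card (n := 1)
      rw [Nat.card_zpowers, pow_one, ← Subgroup.orderOf_coe]
      exact ht3.orderOf
    have h4 := hC.card_modEq_card_fixedPoints (Γ ⧸ H.subgroupOf Γ)
    have h5 : Nat.card (fixedPoints C (Γ ⧸ H.subgroupOf Γ)) ≠ 0 := by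
      intro h0
      rw [h0, ← Subgroup.index_eq_card] at h4
      exact h3 ((Nat.modEq_zero_iff_dvd).1 h4)
    obtain ⟨⟨y, hy⟩⟩ := (Nat.card_ne_zero.1 h5).1
    obtain ⟨g, rfl⟩ := QuotientGroup.mk_surjective y
    have h6 : (⟨T, mem_zpowers T⟩ : C) • (g : Γ ⧸ H.subgroupOf Γ) = (g : Γ ⧸ H.subgroupOf Γ) := hy _
    have h7 : ((T * g : Γ) : Γ ⧸ H.subgroupOf Γ) = (g : Γ ⧸ H.subgroupOf Γ) := h6
    have h8 := QuotientGroup.eq.1 h7.symm
    rw [Subgroup.mem_subgroupOf] at h8
    have h9 : (g : Perm (Fin m))⁻¹ * t * ((g : Perm (Fin m))⁻¹)⁻¹ ∈ H := by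
      rw [inv_inv]
      have e : ((g⁻¹ * (T * g) : Γ) : Perm (Fin m)) = (g : Perm (Fin m))⁻¹ * t * (g : Perm (Fin m)) := by
        simp [T, mul_assoc]
      rw [← e]; exact h8
    have h10 : ((g : Perm (Fin m))⁻¹ * t * ((g : Perm (Fin m))⁻¹)⁻¹).IsThreeCycle := by
      unfold Equiv.Perm.IsThreeCycle
      rw [Equiv.Perm.cycleType_conj]; exact ht
    exact hne (alternatingGroup_le_of_isPreprimitive_of_isThreeCycle_mem hP h10 h9)
  · have hr1 := hr.two_le
    obtain ⟨x, hx⟩ : ∃ x : Perm (Fin m), x.cycleType = {r} := by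
      rw [Equiv.Perm.exists_with_cycleType_iff]
      constructor
      · simp; omega
      · simpa using hr1
    have hxc : x.IsCycle := by
      rw [← Equiv.Perm.card_cycleType_eq_one, hx]; rfl
    have hxs : x.support.card = r := by
      rw [← Equiv.Perm.sum_cycleType, hx, Multiset.sum_singleton]
    refine ⟨x, ?_, ?_, ?_⟩
    · apply hA
      rw [Equiv.Perm.mem_alternatingGroup, hxc.sign, hxs, hodd.neg_one_pow, neg_neg]
    · rw [hxc.orderOf, hxs]
    · intro g hg hmem
      apply hne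
      exact Cfsg.Agent.S0713.result H hP hr (by rw [Fintype.card_fin]; exact hm)
        (by rw [Fintype.card_fin]; omega) (g := g * x * g⁻¹) hxc.conj
        (by rw [Equiv.Perm.card_support_conj]; exact hxs) hmem

theorem core {Γ H : Subgroup (Perm (Fin m))} (hm : 5 ≤ m) (hA : alternatingGroup (Fin m) ≤ Γ) (hH : H ≤ Γ)
    (hmax : ∀ K : Subgroup (Perm (Fin m)), H ≤ K → K ≤ Γ → K = H ∨ K = Γ)
    (hne : ¬ alternatingGroup (Fin m) ≤ H)
    {r : ℕ} (hr : r.Prime) (hrd : r ∣ H.relIndex Γ)
    (hrm : ∀ s : ℕ, s.Prime → s ∣ H.relIndex Γ → s ≤ r) :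
    ∃ x ∈ Γ, orderOf x = r ∧ ∀ g ∈ Γ, g * x * g⁻¹ ∉ H := by
  classical
  by_cases ht : IsPretransitive H (Fin m)
  · by_cases hP : IsPreprimitive H (Fin m)
    · exact caseC hm hA hH hne hr hrd hrm hP
    · have : ∃ B : Set (Fin m), IsBlock H B ∧ ¬ IsTrivialBlock B := by
        by_contra hcon
        push Not at hcon
        exact hP { isTrivialBlock_of_isBlock := fun {B} hB => hcon B hB }
      obtain ⟨B, hB, hnt⟩ := this
      exact caseB hm hA hH hr hrd hrm hB hnt
  · have h0 : ∃ a b : Fin m, b ∉ orbit H a := by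
      by_contra hcon
      push Not at hcon
      exact ht ⟨fun a b => by
        obtain ⟨g, hg⟩ := hcon a b
        exact ⟨g, hg⟩⟩
    obtain ⟨a, b, hab⟩ := h0
    let D : Finset (Fin m) := Finset.univ.filter (fun y => y ∈ orbit H a)
    have hD : ∀ h ∈ H, h • D = D := by
      intro h hh
      apply Finset.eq_of_subset_of_card_le
      · intro y hy
        obtain ⟨x, hx, rfl⟩ := Finset.mem_smul_finset.1 hy
        rw [Finset.mem_filter] at hx ⊢
        refine ⟨Finset.mem_univ _, ?_⟩
        obtain ⟨k, hk⟩ := hx.2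
        exact ⟨⟨h, hh⟩ * k, by
          show ((⟨h, hh⟩ : H) * k) • a = h • x
          rw [mul_smul, ← hk]; rfl⟩
      · rw [Finset.card_smul_finset]
    have hDc : ∀ h ∈ H, h • Dᶜ = Dᶜ := by
      intro h hh
      apply Finset.eq_of_subset_of_card_le
      · intro y hy
        obtain ⟨x, hx, rfl⟩ := Finset.mem_smul_finset.1 hy
        rw [Finset.mem_compl] at hx ⊢
        intro h3
        apply hx
        have h4 : h⁻¹ • (h • x) ∈ h⁻¹ • D := Finset.smul_mem_smul_finset h3
        rwa [inv_smul_smul, hD _ (H.inv_mem hh)] at h4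
      · rw [Finset.card_smul_finset]
    have haD : a ∈ D := by
      rw [Finset.mem_filter]; exact ⟨Finset.mem_univ _, mem_orbit_self a⟩
    have hbD : b ∈ Dᶜ := by
      rw [Finset.mem_compl, Finset.mem_filter]
      exact fun h => hab h.2
    rcases Nat.lt_or_ge m (2 * D.card) with h | h
    · refine caseA hm hA hH hmax hr hrd hrm Dᶜ hDc ⟨b, hbD⟩ ?_
      rw [Finset.card_compl, Fintype.card_fin]
      omega
    · exact caseA hm hA hH hmax hr hrd hrm D hD ⟨a, haD⟩ h

end AbSec.Alt
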