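import Cfsg.Agent.Lib.AbAlt2
import Cfsg.Agent.Lib.H70AltPrime

/-!
# Derangements in primitive groups with socle `A_6` (helper77)
-/

set_option autoImplicit false

namespace AbSec.Alt

open Equiv Equiv.Perm Subgroup MulAction
open scoped Pointwise

theorem no15 (g : Perm (Fin 6)) : orderOf g ≠ 15 := by
  intro h
  have hsum : g.cycleType.sum ≤ 6 := by
    have := g.sum_cycleType_le; simpa using this
  have h1 : ∀ a ∈ g.cycleType, a = 3 ∨ a = 5 := by
    intro a ha
    have h2 : a ∣ 15 := by rw [← h]; exact Equiv.Perm.dvd_of_mem_cycleType ha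
    have h3 : 2 ≤ a := Equiv.Perm.two_le_of_mem_cycleType ha
    have h4 : a ≤ 6 := (Multiset.le_sum_of_mem ha).trans hsum
    interval_cases a <;> revert h2 <;> decide
  have hlcm : g.cycleType.lcm = 15 := by rw [Equiv.Perm.lcm_cycleType, h]
  have h3 : 3 ∈ g.cycleType := by
    by_contra hn
    have h4 : g.cycleType.lcm ∣ 5 := by
      rw [Multiset.lcm_dvd]
      intro a ha
      rcases h1 a ha with rfl | rfl
      · exact absurd ha hn
      · exact dvd_rfl
    rw [hlcm] at h4
    revert h4; decide
  have h5 : 5 ∈ g.cycleType := by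
    by_contra hn
    have h4 : g.cycleType.lcm ∣ 3 := by
      rw [Multiset.lcm_dvd]
      intro a ha
      rcases h1 a ha with rfl | rfl
      · exact dvd_rfl
      · exact absurd ha hn
    rw [hlcm] at h4
    revert h4; decide
  obtain ⟨t, ht⟩ := Multiset.exists_cons_of_mem h3
  rw [ht, Multiset.mem_cons] at h5
  rcases h5 with h5 | h5
  · omega
  · obtain ⟨u, hu⟩ := Multiset.exists_cons_of_mem h5
    rw [ht, hu, Multiset.sum_cons, Multiset.sum_cons] at hsum
    omega

/-- no group of order 15 or 45 embeds in `S_6`. -/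
theorem no_small_odd {K : Type*} [Group K] [Finite K] (f : K →* Perm (Fin 6)) (hf : Function.Injective f)
    (hc : Nat.card K = 15 ∨ Nat.card K = 45) : False := by
  have hf5 : Fact (Nat.Prime 5) := ⟨Nat.prime_five⟩
  have hf3 : Fact (Nat.Prime 3) := ⟨Nat.prime_three⟩
  obtain ⟨P⟩ : Nonempty (Sylow 5 K) := inferInstance
  have hPc : Nat.card P = 5 := by
    rw [P.card_eq_multiplicity]
    rcases hc with h | h
    · rw [h]
      have : (15 : ℕ).factorization 5 = 1 := by
        rw [show 15 = 3 * 5 from rfl, Nat.factorization_mul (by norm_num) (by norm_num)]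
        simp [Nat.Prime.factorization Nat.prime_five, Nat.Prime.factorization Nat.prime_three]
      rw [this, pow_one]
    · rw [h]
      have : (45 : ℕ).factorization 5 = 1 := by
        rw [show 45 = 3 * 3 * 5 from rfl, Nat.factorization_mul (by norm_num) (by norm_num),
          Nat.factorization_mul (by norm_num) (by norm_num)]
        simp [Nat.Prime.factorization Nat.prime_five, Nat.Prime.factorization Nat.prime_three]
      rw [this, pow_one]
  have hidx : (P : Subgroup K).index = 3 ∨ (P : Subgroup K).index = 9 := by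
    have h1 := (P : Subgroup K).card_mul_index
    rw [hPc] at h1
    rcases hc with h | h
    · left; omega
    · right; omega
  have hn1 : Nat.card (Sylow 5 K) = 1 := by
    have h1 := card_sylow_modEq_one 5 K
    have h2 := P.card_dvd_index
    rcases hidx with h | h
    · rw [h] at h2
      have h3 := Nat.le_of_dvd (by norm_num) h2
      unfold Nat.ModEq at h1
      interval_cases hh : Nat.card (Sylow 5 K) <;> simp_all
    · rw [h] at h2
      have h3 := Nat.le_of_dvd (by norm_num) h2
      unfold Nat.ModEq at h1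
      interval_cases hh : Nat.card (Sylow 5 K) <;> simp_all
  have hN : (P : Subgroup K).Normal := by
    have : Subsingleton (Sylow 5 K) := (Nat.card_eq_one_iff_unique.1 hn1).1
    exact Sylow.normal_of_subsingleton P
  obtain ⟨c, hcP⟩ := exists_prime_orderOf_dvd_card' (G := (P : Subgroup K)) 5 (by rw [hPc])
  obtain ⟨b, hb⟩ := exists_prime_orderOf_dvd_card' (G := K) 3 (by
    rcases hc with h | h <;> rw [h] <;> norm_num)
  have hcyc : IsCyclic (P : Subgroup K) := isCyclic_of_prime_card hPc
  have h4 : Nat.card (MulAut (P : Subgroup K)) = 4 := by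
    rw [IsCyclic.card_mulAut, hPc]; rfl
  have h5 : (MulAut.conjNormal b : MulAut (P : Subgroup K)) = 1 := by
    rw [← orderOf_eq_one_iff]
    have h6 : orderOf (MulAut.conjNormal b : MulAut (P : Subgroup K)) ∣ 3 := by
      rw [← hb]; exact orderOf_map_dvd _ b
    have h7 : orderOf (MulAut.conjNormal b : MulAut (P : Subgroup K)) ∣ 4 := by
      rw [← h4]; exact orderOf_dvd_natCard _
    have := Nat.dvd_gcd h6 h7
    rwa [show Nat.gcd 3 4 = 1 from rfl, Nat.dvd_one] at this
  have hcomm : Commute b (c : K) := by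
    have h6 := congrArg (fun z : MulAut (P : Subgroup K) => ((z c : (P : Subgroup K)) : K)) h5
    have h7 : b * (c : K) * b⁻¹ = c := h6
    exact mul_inv_eq_iff_eq_mul.1 h7
  have h8 : orderOf (b * (c : K)) = 15 := by
    rw [hcomm.orderOf_mul_eq_mul_orderOf_of_coprime (by rw [hb, Subgroup.orderOf_coe, hcP]; decide), hb,
      Subgroup.orderOf_coe, hcP]
  apply no15 (f (b * c))
  rw [orderOf_injective f hf, h8]

theorem no_small {K : Type*} [Group K] [Finite K] (f : K →* Perm (Fin 6)) (hf : Function.Injective f)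
    (hc : Nat.card K = 15 ∨ Nat.card K = 30 ∨ Nat.card K = 45) : False := by
  rcases hc with h | h | h
  · exact no_small_odd f hf (Or.inl h)
  · have hf2 : Fact (Nat.Prime 2) := ⟨Nat.prime_two⟩
    obtain ⟨P⟩ : Nonempty (Sylow 2 K) := inferInstance
    have hPc : Nat.card P = 2 := by
      rw [P.card_eq_multiplicity, h]
      have : (30 : ℕ).factorization 2 = 1 := by
        rw [show 30 = 2 * 3 * 5 from rfl, Nat.factorization_mul (by norm_num) (by norm_num),
          Nat.factorization_mul (by norm_num) (by norm_num)]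
        simp [Nat.Prime.factorization Nat.prime_five, Nat.Prime.factorization Nat.prime_three,
          Nat.Prime.factorization Nat.prime_two]
      rw [this, pow_one]
    have hcyc : IsCyclic (P : Subgroup K) := isCyclic_of_prime_card hPc
    have hmf : (Nat.card K).minFac = 2 := by rw [h]; rfl
    have h1 := (IsCyclic.isComplement' (P := P) hmf hcyc).card_mul_card
    set N := (MonoidHom.transferSylow P (hcyc.normalizer_le_centralizer hmf)).ker with hN
    rw [hPc, h] at h1
    have h2 : Nat.card N = 15 := by omega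
    exact no_small_odd (f.comp N.subtype) (hf.comp Subtype.val_injective) (Or.inl h2)
  · exact no_small_odd f hf (Or.inr h)

section six

variable {G : Type*} [Group G] [Finite G] (T : Subgroup G) [hT : T.Normal]
  (hTc : Subgroup.centralizer (T : Set G) = ⊥) (eT : ↥T ≃* ↥(alternatingGroup (Fin 6)))

include hTc eT in
theorem odd_mem {g : G} (hg : Odd (orderOf g)) : g ∈ T := by
  set f : MulAut T := MulAut.conjNormal g with hf
  set F : MulAut (alternatingGroup (Fin 6)) := MulAut.congr eT f with hF
  have h1 : F ^ orderOf g = 1 := by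
    rw [hF, ← map_pow, hf, ← map_pow, pow_orderOf_eq_one, map_one, map_one]
  have h2 : Odd (orderOf F) := Odd.of_dvd_nat hg (orderOf_dvd_of_pow_eq_one h1)
  obtain ⟨s, hs⟩ := Cfsg.Agent.Lib.H70AltPrime.exists_perm (by norm_num) F h2
  have h3 : s ^ orderOf g = 1 := by
    apply Cfsg.Agent.Lib.H70AltPrime.injective_conjNormal (α := Fin 6) (by simp)
    rw [map_pow, hs, h1, map_one]
  have h4 : s ∈ alternatingGroup (Fin 6) := by
    rw [Equiv.Perm.mem_alternatingGroup]
    have h5 := congrArg sign h3
    rw [map_pow, map_one] at h5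
    rcases Int.units_eq_one_or (sign s) with h6 | h6
    · exact h6
    · rw [h6, hg.neg_one_pow] at h5
      exact absurd h5 (by decide)
  set t : T := eT.symm ⟨s, h4⟩ with ht
  have h5 : (t : G)⁻¹ * g ∈ Subgroup.centralizer (T : Set G) := by
    rw [Subgroup.mem_centralizer_iff]
    intro y hy
    -- conj by g = conj by t on T
    have h6 : f ⟨y, hy⟩ = t * ⟨y, hy⟩ * t⁻¹ := by
      apply eT.injective
      have h7 : eT (f ⟨y, hy⟩) = F (eT ⟨y, hy⟩) := by
        rw [hF]
        show eT (f ⟨y, hy⟩) = eT (f (eT.symm (eT ⟨y, hy⟩)))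
        rw [MulEquiv.symm_apply_apply]
      rw [h7, ← hs, map_mul, map_mul, map_inv, ht, MulEquiv.apply_symm_apply]
      apply Subtype.ext
      rw [MulAut.conjNormal_apply]
      rfl
    have h7 : g * y * g⁻¹ = t * y * (t : G)⁻¹ := congrArg Subtype.val h6
    have h8 : g * y = t * y * (t : G)⁻¹ * g := by rw [← h7]; group
    calc y * ((t : G)⁻¹ * g) = (t : G)⁻¹ * (t * y * (t : G)⁻¹ * g) := by group
      _ = (t : G)⁻¹ * (g * y) := by rw [h8]
      _ = (t : G)⁻¹ * g * y := by group
  rw [hTc, Subgroup.mem_bot] at h5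
  have h6 : g = t := by
    rw [inv_mul_eq_one] at h5; exact h5.symm
  rw [h6]; exact t.2

include hTc eT in
theorem exists_card : ∃ a : ℕ, Nat.card G = 360 * 2 ^ a := by
  have hf2 : Fact (Nat.Prime 2) := ⟨Nat.prime_two⟩
  have h1 : IsPGroup 2 (G ⧸ T) := by
    intro y
    obtain ⟨g, rfl⟩ := QuotientGroup.mk_surjective y
    obtain ⟨k, c, hc, hk⟩ := Nat.exists_eq_two_pow_mul_odd (n := orderOf g) (orderOf_pos g).ne'
    refine ⟨k, ?_⟩
    rw [← QuotientGroup.mk_pow, QuotientGroup.eq_one_iff]
    apply odd_mem T hTc eT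
    rw [orderOf_pow, hk, Nat.gcd_eq_right (Dvd.intro _ rfl), Nat.mul_div_cancel_left _ (by positivity)]
    exact hc
  obtain ⟨a, ha⟩ := IsPGroup.iff_card.1 h1
  refine ⟨a, ?_⟩
  have h2 := T.card_mul_index
  have h3 : Nat.card T = 360 := by
    rw [Nat.card_congr eT.toEquiv, nat_card_alternatingGroup]
    simp [Nat.factorial]
  rw [← h2, h3, Subgroup.index_eq_card, ha]

end six

section main

variable {G Ω : Type*} [Group G] [Finite G] [MulAction G Ω] [FaithfulSMul G Ω] [Finite Ω]

omit [FaithfulSMul G Ω] [Finite Ω] in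
theorem derang_of_not_dvd [IsPretransitive G Ω] (w : Ω) {r : ℕ} (hr : r.Prime) (hG : r ∣ Nat.card G)
    (hS : ¬ r ∣ Nat.card (stabilizer G w)) : ∃ g : G, orderOf g = r ∧ ∀ ω : Ω, g • ω ≠ ω := by
  have hfact : Fact r.Prime := ⟨hr⟩
  obtain ⟨x, hx⟩ := exists_prime_orderOf_dvd_card' (G := G) r hG
  refine ⟨x, hx, ?_⟩
  intro v hv
  obtain ⟨g, rfl⟩ := exists_smul_eq G w v
  apply hS
  have h1 : g⁻¹ * x * g ∈ stabilizer G w := by
    rw [mem_stabilizer_iff, mul_smul, mul_smul, hv, inv_smul_smul]
  have h2 : orderOf (g⁻¹ * x * g) = r := by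
    have : g⁻¹ * x * g = MulAut.conj g⁻¹ x := by simp
    rw [this, MulEquiv.orderOf_eq, hx]
  rw [← h2]
  exact Subgroup.orderOf_dvd_natCard _ h1

theorem pretrans_of_normal (T : Subgroup G) [T.Normal] (hprim : IsPreprimitive G Ω) (hne : T ≠ ⊥) :
    IsPretransitive T Ω := by
  have h1 : IsQuasiPreprimitive G Ω := inferInstance
  apply h1.isPretransitive_of_normal
  intro h
  apply hne
  rw [eq_bot_iff]
  intro t ht
  rw [Subgroup.mem_bot]
  apply FaithfulSMul.eq_of_smul_eq_smul (α := Ω)
  intro w
  rw [one_smul]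
  have : w ∈ fixedPoints T Ω := by rw [h]; trivial
  exact this ⟨t, ht⟩

theorem six (T : Subgroup G) (hT : T.Normal) (hTc : Subgroup.centralizer (T : Set G) = ⊥)
    (eT : ↥T ≃* ↥(alternatingGroup (Fin 6))) (hprim : MulAction.IsPreprimitive G Ω) (hΩ : 2 ≤ Nat.card Ω)
    (r : ℕ) (hr : r.Prime) (hrd : r ∣ Nat.card Ω) (hmax : ∀ s : ℕ, s.Prime → s ∣ Nat.card Ω → s ≤ r) :
    ∃ g : G, orderOf g = r ∧ ∀ ω : Ω, g • ω ≠ ω := by
  classical
  obtain ⟨a, ha⟩ := exists_card T hTc eT
  have hTcard : Nat.card T = 360 := by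
    rw [Nat.card_congr eT.toEquiv, nat_card_alternatingGroup]
    simp [Nat.factorial]
  have hTne : T ≠ ⊥ := by
    intro h
    rw [h, Subgroup.card_bot] at hTcard
    omega
  have hTt : IsPretransitive T Ω := pretrans_of_normal T hprim hTne
  have hpt : IsPretransitive G Ω := hprim.toIsPretransitive
  obtain ⟨w⟩ : Nonempty Ω := Nat.card_pos_iff.1 (by omega) |>.1
  -- orders
  have c1 : Nat.card Ω * Nat.card (stabilizer T w) = 360 := by
    rw [← hTcard, ← (stabilizer T w).card_mul_index, index_stabilizer_of_transitive, mul_comm]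
  have c2 : Nat.card Ω * Nat.card (stabilizer G w) = 360 * 2 ^ a := by
    rw [← ha, ← (stabilizer G w).card_mul_index, index_stabilizer_of_transitive, mul_comm]
  have hr360 : r ∣ 360 := by rw [← c1]; exact Dvd.dvd.mul_right hrd _
  have hr235 : r = 2 ∨ r = 3 ∨ r = 5 := by
    have h1 : r ∣ 2 * 2 * 2 * 3 * 3 * 5 := hr360
    have h2 := hr.two_le
    rw [hr.dvd_mul, hr.dvd_mul, hr.dvd_mul, hr.dvd_mul, hr.dvd_mul] at h1
    rw [Nat.prime_dvd_prime_iff_eq hr Nat.prime_two, Nat.prime_dvd_prime_iff_eq hr Nat.prime_three,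
      Nat.prime_dvd_prime_iff_eq hr Nat.prime_five] at h1
    omega
  have hrG : r ∣ Nat.card G := by
    rw [ha]; exact Dvd.dvd.mul_right hr360 _
  by_cases h5 : 5 ∣ Nat.card Ω
  · have hr5 : r = 5 := by
      have := hmax 5 Nat.prime_five h5
      omega
    subst hr5
    apply derang_of_not_dvd w hr hrG
    intro h
    have h1 : 5 * 5 ∣ 360 * 2 ^ a := by rw [← c2]; exact mul_dvd_mul h5 h
    have h2 : Nat.Coprime (5 * 5) (2 ^ a) := by
      apply Nat.Coprime.pow_right; decide
    have h3 := h2.dvd_of_dvd_mul_right h1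
    revert h3; decide
  · by_cases h3 : 3 ∣ Nat.card (stabilizer G w)
    · -- 15 divides the order of stabilizer T w
      have hf3 : Fact (Nat.Prime 3) := ⟨Nat.prime_three⟩
      obtain ⟨b, hb⟩ := exists_prime_orderOf_dvd_card' (G := stabilizer G w) 3 h3
      have hbT : (b : G) ∈ T := by
        apply odd_mem T hTc eT
        rw [Subgroup.orderOf_coe, hb]; decide
      have h3' : 3 ∣ Nat.card (stabilizer T w) := by
        have h6 : (⟨(b : G), hbT⟩ : T) ∈ stabilizer T w := by
          rw [mem_stabilizer_iff]; exact b.2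
        have h7 := Subgroup.orderOf_dvd_natCard _ h6
        rwa [← Subgroup.orderOf_coe, Subgroup.coe_mk, Subgroup.orderOf_coe, hb] at h7
      have h5' : 5 ∣ Nat.card (stabilizer T w) := by
        have h6 : 5 ∣ Nat.card Ω * Nat.card (stabilizer T w) := by rw [c1]; norm_num
        exact (Nat.prime_five.dvd_mul.1 h6).resolve_left h5
      have h15 : 15 ∣ Nat.card (stabilizer T w) := Nat.Coprime.mul_dvd_of_dvd_of_dvd (m := 3) (n := 5) (by decide) h3' h5'
      -- card Ω ≥ 6
      have hinj : Function.Injective (MulAction.toPermHom T Ω) := by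
        rw [injective_iff_map_eq_one]
        intro t ht
        apply Subtype.ext
        apply FaithfulSMul.eq_of_smul_eq_smul (α := Ω)
        intro v
        have h6 : t • v = v := by
          have := congrArg (fun s : Perm Ω => s v) ht
          simpa using this
        rw [Subgroup.coe_one, one_smul]
        exact h6
      have h360 : 360 ∣ (Nat.card Ω).factorial := by
        rw [← Nat.card_perm, ← hTcard, Nat.card_congr (MonoidHom.ofInjective hinj).toEquiv]
        exact Subgroup.card_subgroup_dvd_card _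
      obtain ⟨t, ht⟩ := h15
      rw [ht] at c1
      have h24 : Nat.card Ω * t = 24 := by
        have : 15 * (Nat.card Ω * t) = 15 * 24 := by rw [← mul_assoc, mul_comm 15, mul_assoc]; simpa using c1
        omega
      have hle : Nat.card Ω ≤ 24 := Nat.le_of_dvd (by norm_num) (Dvd.intro _ h24)
      have hge : 6 ≤ Nat.card Ω := by
        by_contra hcon
        push Not at hcon
        interval_cases h : Nat.card Ω <;> revert h360 <;> decide
      have hsmall := fun hh => no_small ((alternatingGroup (Fin 6)).subtype.comp (eT.toMonoidHom.comp (stabilizer T w).subtype))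
        (Subtype.val_injective.comp (eT.injective.comp Subtype.val_injective)) hh
      rw [ht] at hsmall
      have hc6 : Nat.card Ω = 6 := by
        have h6 : t = 1 ∨ t = 2 ∨ t = 3 ∨ t = 4 := by
          have : t ≤ 4 := by nlinarith
          have : t ≠ 0 := by rintro rfl; omega
          omega
        rcases h6 with rfl | rfl | rfl | rfl
        · exact (hsmall (by omega)).elim
        · exact (hsmall (by omega)).elim
        · exact (hsmall (by omega)).elim
        · omega
      have hr3 : r = 3 := by
        rw [hc6] at hrd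
        have := hmax 3 Nat.prime_three (by rw [hc6]; norm_num)
        rcases hr235 with h | h | h
        · omega
        · exact h
        · rw [h] at hrd
          exact absurd hrd (by decide)
      subst hr3
      let _ : Fintype Ω := Fintype.ofFinite Ω
      have hR : (MulAction.toPermHom T Ω).range = alternatingGroup Ω := by
        apply Equiv.Perm.eq_alternatingGroup_of_index_eq_two
        have h6 := (MulAction.toPermHom T Ω).range.card_mul_index
        rw [← Nat.card_congr (MonoidHom.ofInjective hinj).toEquiv, hTcard, Nat.card_perm, hc6] at h6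
        have h7 : (6 : ℕ).factorial = 720 := by decide
        omega
      obtain ⟨y, hy⟩ := (Equiv.Perm.exists_with_cycleType_iff (α := Ω) (m := {3, 3})).2 (by
        constructor
        · rw [← Nat.card_eq_fintype_card, hc6]; simp
        · intro c hc
          simp at hc
          omega)
      have hyA : y ∈ alternatingGroup Ω := by
        rw [Equiv.Perm.mem_alternatingGroup, Equiv.Perm.sign_of_cycleType, hy]
        decide
      rw [← hR] at hyA
      obtain ⟨x, hx⟩ := hyA
      refine ⟨x, ?_, ?_⟩
      · rw [Subgroup.orderOf_coe, ← orderOf_injective _ hinj, hx, ← Equiv.Perm.lcm_cycleType, hy]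
        decide
      · intro v hv
        have h6 : y.support = Finset.univ := by
          apply Finset.eq_univ_of_card
          rw [← Equiv.Perm.sum_cycleType, hy, ← Nat.card_eq_fintype_card, hc6]
          decide
        have h7 : v ∈ y.support := by rw [h6]; exact Finset.mem_univ _
        rw [Equiv.Perm.mem_support, ← hx] at h7
        exact h7 hv
    · have h3Ω : 3 ∣ Nat.card Ω := by
        have h6 : 3 ∣ Nat.card Ω * Nat.card (stabilizer G w) := by
          rw [c2]; exact Dvd.dvd.mul_right (by norm_num) _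
        exact (Nat.prime_three.dvd_mul.1 h6).resolve_right h3
      have hr3 : r = 3 := by
        have := hmax 3 Nat.prime_three h3Ω
        rcases hr235 with h | h | h
        · omega
        · exact h
        · rw [h] at hrd; exact absurd hrd h5
      subst hr3
      exact derang_of_not_dvd w hr hrG h3

theorem notsix (T : Subgroup G) (hT : T.Normal) (hTc : Subgroup.centralizer (T : Set G) = ⊥) (m : ℕ) (hm : 5 ≤ m)
    (h6 : m ≠ 6) (eT : ↥T ≃* ↥(alternatingGroup (Fin m))) (hprim : MulAction.IsPreprimitive G Ω) (hΩ : 2 ≤ Nat.card Ω)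
    (r : ℕ) (hr : r.Prime) (hrd : r ∣ Nat.card Ω) (hmax : ∀ s : ℕ, s.Prime → s ∣ Nat.card Ω → s ≤ r) :
    ∃ g : G, orderOf g = r ∧ ∀ ω : Ω, g • ω ≠ ω := by
  classical
  have hbij := Cfsg.Agent.Lib.AutAlt.bijective_conjNormal (α := Fin m) (by simp; omega) (by simpa using h6)
  let eA : Perm (Fin m) ≃* MulAut ↥(alternatingGroup (Fin m)) := MulEquiv.ofBijective MulAut.conjNormal hbij
  let f : G →* Perm (Fin m) := eA.symm.toMonoidHom.comp ((MulAut.congr eT).toMonoidHom.comp (MulAut.conjNormal : G →* MulAut T))
  have hf1 : ∀ g, eA (f g) = MulAut.congr eT (MulAut.conjNormal g) := fun g => eA.apply_symm_apply _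
  have hinj : Function.Injective f := by
    rw [injective_iff_map_eq_one]
    intro g hg
    have h1 := hf1 g
    rw [hg, map_one] at h1
    have h2 : (MulAut.conjNormal g : MulAut T) = 1 := by
      apply (MulAut.congr eT).injective
      rw [← h1, map_one]
    have h3 : g ∈ Subgroup.centralizer (T : Set G) := by
      rw [Subgroup.mem_centralizer_iff]
      intro y hy
      have h4 := congrArg (fun z : MulAut T => ((z ⟨y, hy⟩ : T) : G)) h2
      have h5 : g * y * g⁻¹ = y := h4
      exact (mul_inv_eq_iff_eq_mul.1 h5).symm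
    rwa [hTc, Subgroup.mem_bot] at h3
  have hfT : ∀ t : T, f t = (eT t : Perm (Fin m)) := by
    intro t
    apply eA.injective
    rw [hf1]
    ext1 a
    show eT (MulAut.conjNormal (t : G) (eT.symm a)) = MulAut.conjNormal ((eT t : _) : Perm (Fin m)) a
    have h1 : MulAut.conjNormal (t : G) (eT.symm a) = t * eT.symm a * t⁻¹ := by
      apply Subtype.ext
      rw [MulAut.conjNormal_apply]
      rfl
    rw [h1, map_mul, map_mul, MulEquiv.apply_symm_apply, map_inv]
    apply Subtype.ext
    rw [MulAut.conjNormal_apply]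
    rfl
  have hA : alternatingGroup (Fin m) ≤ f.range := by
    intro s hs
    refine ⟨(eT.symm ⟨s, hs⟩ : T), ?_⟩
    rw [hfT, MulEquiv.apply_symm_apply]
  have hTne : T ≠ ⊥ := by
    intro h
    have h1 : Nat.card T = 1 := by rw [h, Subgroup.card_bot]
    rw [Nat.card_congr eT.toEquiv] at h1
    have h2 : (alternatingGroup (Fin m)) = ⊥ := Subgroup.eq_bot_of_card_eq _ h1
    obtain ⟨g, hg, ho, _⟩ := exists_elt (m := m) (r := 3) Nat.prime_three (by omega) (by omega)
    rw [h2, Subgroup.mem_bot] at hg
    rw [hg, orderOf_one] at ho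
    omega
  have hTt : IsPretransitive T Ω := pretrans_of_normal T hprim hTne
  have hpt : IsPretransitive G Ω := hprim.toIsPretransitive
  have hnt : Nontrivial Ω := Finite.one_lt_card_iff_nontrivial.1 (by omega)
  obtain ⟨w⟩ : Nonempty Ω := inferInstance
  have hco : IsCoatom (stabilizer G w) := (isCoatom_stabilizer_iff_preprimitive G w).2 hprim
  set H : Subgroup (Perm (Fin m)) := (stabilizer G w).map f with hHdef
  have hH : H ≤ f.range := Subgroup.map_le_range f _
  have hrel : H.relIndex f.range = Nat.card Ω := by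
    have h1 := card_mul_rel hH
    have h2 : Nat.card H = Nat.card (stabilizer G w) := Subgroup.card_map_of_injective hinj
    have h3 : Nat.card f.range = Nat.card G := (Nat.card_congr (MonoidHom.ofInjective hinj).toEquiv).symm
    have h4 : Nat.card (stabilizer G w) * Nat.card Ω = Nat.card G := by
      rw [← (stabilizer G w).card_mul_index, index_stabilizer_of_transitive]
    rw [h2, h3, ← h4] at h1
    exact Nat.eq_of_mul_eq_mul_left Nat.card_pos h1
  obtain ⟨x, ⟨x', rfl⟩, hxo, hxn⟩ := core (Γ := f.range) (H := H) hm hA hH (by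
      intro K hK1 hK2
      have h1 : stabilizer G w ≤ K.comap f := by
        rw [← Subgroup.map_le_iff_le_comap]; exact hK1
      have h2 : (K.comap f).map f = K := by
        rw [Subgroup.map_comap_eq, inf_eq_right]; exact hK2
      rcases eq_or_lt_of_le h1 with h | h
      · left
        rw [← h2, ← h]
      · right
        have := hco.2 _ h
        rw [← h2, this, MonoidHom.range_eq_map]) (by
      intro hle
      have h1 : ∀ t : T, t • w = w := by
        intro t
        have h2 : f t ∈ H := by rw [hfT]; exact hle (eT t).2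
        obtain ⟨s, hs, hst⟩ := h2
        have : s = t := hinj hst
        rw [this] at hs
        exact hs
      obtain ⟨v, hv⟩ := exists_ne w
      obtain ⟨t, ht⟩ := exists_smul_eq T w v
      exact hv (by rw [← ht, h1 t])) hr (by rw [hrel]; exact hrd) (by rw [hrel]; exact hmax)
  refine ⟨x', ?_, ?_⟩
  · rw [← hxo, orderOf_injective f hinj]
  · intro v hv
    obtain ⟨g, rfl⟩ := exists_smul_eq G w v
    apply hxn (f g⁻¹) ⟨g⁻¹, rfl⟩
    refine ⟨g⁻¹ * x' * g, ?_, ?_⟩
    · show g⁻¹ * x' * g ∈ stabilizer G w
      rw [mem_stabilizer_iff, mul_smul, mul_smul, hv, inv_smul_smul]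
    · rw [map_mul, map_mul, ← map_inv f g⁻¹, inv_inv]

end main

end AbSec.Alt
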