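import Cfsg.Agent.Lib.AbComb

/-!
# Integral vectors with Gram matrix `I + eJ` and maximal support (helper77)
-/

set_option autoImplicit false
set_option linter.all false

namespace Cfsg.Agent.Lib.AbComb

open scoped Classical

variable {X : Type*} [Fintype X]

/-- the normal form when the support is as large as possible -/
theorem normal_form (F : Finset (X → ℤ)) (e : ℕ) (he : 1 ≤ e) (hF : 1 ≤ F.card)
    (h1 : ∀ v ∈ F, ∑ x, v x * v x = e + 1) (h2 : ∀ v ∈ F, ∀ w ∈ F, v ≠ w → ∑ x, v x * w x = e)
    (deg : X → ℤ) (hdeg : ∀ x, 0 < deg x) (hd : ∀ v ∈ F, ∑ x, deg x * v x = 0)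
    (hcard : (Finset.univ.filter fun x => ∃ v ∈ F, v x ≠ 0).card = e + F.card) :
    ∃ (s : ℤ) (c : (X → ℤ) → X), (s = 1 ∨ s = -1) ∧ Set.InjOn c F ∧ (∀ v ∈ F, v (c v) = s) ∧
      (∀ v ∈ F, ∀ w ∈ F, v ≠ w → v (c w) = 0) ∧
      (∀ x, (∀ w ∈ F, x ≠ c w) → (∃ v ∈ F, v x ≠ 0) → ∃ a : ℤ, (a = 1 ∨ a = -1) ∧ ∀ v ∈ F, v x = a) := by
  rcases hF.eq_or_lt with hF1 | hF2
  · obtain ⟨v, rfl⟩ := Finset.card_eq_one.1 hF1.symm
    have h3 := h1 v (Finset.mem_singleton_self v)
    obtain ⟨O, hO⟩ : ∃ O : Finset X, O = (Finset.univ.filter fun x => ∃ w ∈ ({v} : Finset (X → ℤ)), w x ≠ 0) := ⟨_, rfl⟩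
    have hmem : ∀ x, x ∈ O ↔ v x ≠ 0 := by
      intro x
      rw [hO]
      simp
    rw [← hO, Finset.card_singleton] at hcard
    have h5 : ∑ x ∈ O, v x ^ 2 = O.card := by
      rw [hcard]
      push_cast
      rw [← h3, Finset.sum_congr rfl fun x _ => sq (v x)]
      apply Finset.sum_subset (Finset.subset_univ _)
      intro x _ hx
      have : v x = 0 := by
        by_contra h'
        exact hx ((hmem x).2 h')
      rw [this, mul_zero]
    have hu := unit_of_eq O v (fun x hx => (hmem x).1 hx) h5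
    obtain ⟨x0, hx0⟩ := Finset.card_pos.1 (show 0 < O.card by omega)
    refine ⟨v x0, fun _ => x0, hu x0 hx0, ?_, ?_, ?_, ?_⟩
    · intro a ha b hb _
      rw [Finset.mem_coe, Finset.mem_singleton] at ha hb
      rw [ha, hb]
    · intro w hw
      rw [Finset.mem_singleton.1 hw]
    · intro w hw w' hw' hne
      rw [Finset.mem_singleton] at hw hw'
      exact absurd (hw.trans hw'.symm) hne
    · rintro x - ⟨w, hw, hwx⟩
      rw [Finset.mem_singleton.1 hw] at hwx
      refine ⟨v x, hu x ((hmem x).2 hwx), fun w' hw' => ?_⟩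
      rw [Finset.mem_singleton.1 hw']
  · obtain ⟨s, d, c, O, hs, hc, hd1, hd2, hd3, hO, hq, hO2, hcard2⟩ := shape F e he hF2 h1 h2 deg hdeg hd
    rw [hcard2] at hcard
    have hOe : (O.card : ℤ) = e := by
      have : O.card = e := by omega
      exact_mod_cast this
    have hm : (2 : ℤ) ≤ F.card := by exact_mod_cast hF2
    have hun : ∀ v ∈ F, (∀ x ∈ O, v x = 1 ∨ v x = -1) ∧ (d = 0 ∨ ((F.card : ℤ) = 2 ∧ d = -s)) := by
      intro v hv
      have h3 := card_le_sum_sq O v (hO2 v hv)
      have h4 := arith1 hs hm (hq v hv)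
      have h5 : ∑ x ∈ O, v x ^ 2 = (e : ℤ) := le_antisymm h4.1 (hOe ▸ h3)
      exact ⟨unit_of_eq O v (hO2 v hv) (h5.trans hOe.symm), h4.2 h5⟩
    obtain ⟨v0, hv0⟩ := Finset.card_pos.1 (show 0 < F.card by omega)
    have hrest : ∀ x, x ∉ F.image c → (∃ v ∈ F, v x ≠ 0) → ∃ a : ℤ, (a = 1 ∨ a = -1) ∧ ∀ v ∈ F, v x = a := by
      intro x hx hex
      refine ⟨v0 x, (hun v0 hv0).1 x ((hO x).2 ⟨hx, hex⟩), fun v hv => hd3 v hv v0 hv0 x hx⟩
    rcases (hun v0 hv0).2 with hd0 | ⟨hF2', hds⟩
    · refine ⟨s, c, hs, hc, ?_, ?_, ?_⟩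
      · intro v hv
        rw [hd2 v hv, hd0, zero_add]
      · intro v hv w hw hne
        rw [hd1 v hv w hw hne, hd0]
      · intro x hx hex
        refine hrest x (fun h' => ?_) hex
        obtain ⟨w, hw, rfl⟩ := Finset.mem_image.1 h'
        exact hx w hw rfl
    · have hF2'' : F.card = 2 := by exact_mod_cast hF2'
      obtain ⟨v1, v2, hne, rfl⟩ := Finset.card_eq_two.1 hF2''
      have hm1 : v1 ∈ ({v1, v2} : Finset (X → ℤ)) := by simp
      have hm2 : v2 ∈ ({v1, v2} : Finset (X → ℤ)) := by simp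
      have hcne : c v1 ≠ c v2 := fun h' => hne (hc hm1 hm2 h')
      refine ⟨d, fun v => if v = v1 then c v2 else c v1, ?_, ?_, ?_, ?_, ?_⟩
      · rw [hds]
        rcases hs with rfl | rfl
        · right; rfl
        · left; norm_num
      · intro a ha b hb hab
        rw [Finset.mem_coe, Finset.mem_insert, Finset.mem_singleton] at ha hb
        rcases ha with rfl | rfl <;> rcases hb with rfl | rfl
        · rfl
        · exfalso
          simp only [if_true, if_neg hne.symm] at hab
          exact hcne hab.symm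
        · exfalso
          simp only [if_true, if_neg hne.symm] at hab
          exact hcne hab
        · rfl
      · intro v hv
        rw [Finset.mem_insert, Finset.mem_singleton] at hv
        rcases hv with rfl | rfl
        · simp only [if_true]
          exact hd1 _ hm1 _ hm2 hne
        · simp only [if_neg hne.symm]
          exact hd1 _ hm2 _ hm1 hne.symm
      · intro v hv w hw hvw
        rw [Finset.mem_insert, Finset.mem_singleton] at hv hw
        rcases hv with rfl | rfl <;> rcases hw with rfl | rfl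
        · exact absurd rfl hvw
        · simp only [if_neg hne.symm]
          rw [hd2 _ hm1, hds]; ring
        · simp only [if_true]
          rw [hd2 _ hm2, hds]; ring
        · exact absurd rfl hvw
      · intro x hx hex
        refine hrest x (fun h' => ?_) hex
        obtain ⟨w, hw, rfl⟩ := Finset.mem_image.1 h'
        rw [Finset.mem_insert, Finset.mem_singleton] at hw
        rcases hw with rfl | rfl
        · have := hx v2 hm2
          simp only [if_neg hne.symm] at this
          exact this rfl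
        · have := hx v1 hm1
          simp only [if_true] at this
          exact this rfl

end Cfsg.Agent.Lib.AbComb
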