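import Cfsg.Agent.Lib.AbAct
import Cfsg.Agent.Lib.AbCount2
import Cfsg.Agent.Lib.AbCyc0

/-!
# Nilpotent blocks with abelian defect groups (helper77)
-/

set_option autoImplicit false
set_option linter.all false

namespace Cfsg.Agent.Lib.AbSec

open Cfsg Cfsg.Agent.Lib.BlockRing Cfsg.Agent.Lib.BlockGA Cfsg.Agent.Lib.BlockIdem
open Cfsg.Agent.Lib.BlkIdem Cfsg.Agent.Lib.BlockAlg Cfsg.Agent.Lib.PairAlg Cfsg.Agent.Lib.PairMax
open Cfsg.Agent.Lib.BrauerPairs Cfsg.Agent.Lib.NormalPBlk Cfsg.Agent.Lib.DefPairs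
open Cfsg.Agent.Lib.BlkTransport Cfsg.Agent.Lib.BlkFus Cfsg.Agent.Lib.InducedPair
open Cfsg.Agent.Lib.PairCount Cfsg.Agent.Lib.BlockSecond
open Cfsg.Agent.Lib.AbFusion Cfsg.Agent.Lib.AbCount

universe u

variable {p : ℕ} [hp : Fact p.Prime] {M : Ideal AlgInt} [hMm : M.IsMaximal] [hchar : CharP (Kf M) p]
  {G : Type u} [Group G] [Finite G] {B : Set (IrrCharacter G)} {P : Subgroup G} {c : MonoidAlgebra (Kf M) G}

theorem TT_le_of_nilpotent (hM : IsPModular p M) (h : AbMax p B P c) (hn : IsNilpotentBlock p M B) :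
    TT P c ≤ Cn P := by
  obtain ⟨-, hn⟩ := BlkNil.isNilpotentBlock_iff.1 hn
  intro t ht
  obtain ⟨u, s, hus, hc, ⟨k, hu⟩, hs, hu2, hs2⟩ := exists_ppart hp.out t
  have huT : u ∈ TT P c := Subgroup.zpowers_le.2 ht hu2
  have hsT : s ∈ TT P c := Subgroup.zpowers_le.2 ht hs2
  have hsC : s ∈ Cn P := hn P c h.pair h.br s hsT hs
  have huC : u ∈ Cn P := by
    have h1 := pow_ei_mem h huT
    have h2 := not_dvd_ei h
    have h3 : Nat.Coprime (orderOf u) (ei P c) := by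
      rw [hu]
      exact Nat.Coprime.pow_left _ ((Nat.Prime.coprime_iff_not_dvd hp.out).2 h2)
    obtain ⟨n, hn⟩ := exists_pow_eq_self_of_coprime h3.symm
    rw [← hn]
    exact pow_mem h1 n
  rw [← hus]
  exact mul_mem huC hsC

theorem rank_of_nilpotent (hM : IsPModular p M) (h : AbMax p B P c) (hn : IsNilpotentBlock p M B) :
    blockRank p B = 1 := by
  refine (AbMax.nilpotent hM _ le_rfl h (fun t ht x hx => ?_)).1
  have h1 := TT_le_of_nilpotent hM h hn ht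
  rw [Subgroup.mem_centralizer_iff] at h1
  rw [← h1 x hx]
  group

end Cfsg.Agent.Lib.AbSec
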