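import Cfsg.Agent.Lib.AbPI5
import Cfsg.Agent.Lib.AbNil1
import Cfsg.Agent.Lib.AbCyc1
import Cfsg.Agent.Lib.H76Nil
import Cfsg.Agent.Lib.BlockInfl
import Cfsg.Agent.Lib.PrincPairs

/-!
# The group algebra of a Frobenius group with cyclic kernel of prime power order (helper77)
-/

set_option autoImplicit false
set_option linter.all false

namespace Cfsg.Agent.Lib.AbSec

open Cfsg Cfsg.Agent.Lib.BlockRing Cfsg.Agent.Lib.BlockGA Cfsg.Agent.Lib.BlockIdem
open Cfsg.Agent.Lib.BlkIdem Cfsg.Agent.Lib.BlockAlg Cfsg.Agent.Lib.PairAlg Cfsg.Agent.Lib.PairMax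
open Cfsg.Agent.Lib.BrauerPairs Cfsg.Agent.Lib.NormalPBlk Cfsg.Agent.Lib.DefPairs
open Cfsg.Agent.Lib.BlkTransport Cfsg.Agent.Lib.BlkFus Cfsg.Agent.Lib.InducedPair
open Cfsg.Agent.Lib.BlockCount Cfsg.Agent.Lib.BlockPair Cfsg.Agent.Lib.PairCount
open Cfsg.Agent.Lib.AbFusion Cfsg.Agent.Lib.AbCount Cfsg.Agent.Lib.BlockSecond
open Cfsg.Agent.Lib.CharBasic Cfsg.Agent.Lib.Contrib Cfsg.Agent.Lib.AbFT Cfsg.Agent.Lib.AbWeis
open MonoidAlgebra (single)
open scoped ComplexConjugate Classical

universe u v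

variable {p : ℕ} [hp : Fact p.Prime] {M : Ideal AlgInt} [hMm : M.IsMaximal] [hchar : CharP (Kf M) p]

omit hchar in
/-- a `p`-group has only one block -/
theorem block_univ_of_centralizer_le (hM : IsPModular p M) {H : Type u} [Group H] [Finite H] {P : Subgroup H}
    [P.Normal] (hP : IsPGroup p P) (hC : Subgroup.centralizer (P : Set H) ≤ P)
    {b : Set (IrrCharacter H)} (hb : IsPBlock M b) : b = Set.univ := by
  haveI : M.IsPrime := hMm.isPrime
  obtain ⟨χ, hχ⟩ := isPBlock_nonempty hb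
  apply Set.eq_univ_of_forall
  intro ψ
  have h1 := BlockInfl.mem_principal_of_centralizer_le hM hP hC χ
  have h2 := BlockInfl.mem_principal_of_centralizer_le hM hP hC ψ
  have h3 : b = blockOf M (χ : H → ℂ) := eq_blockOf hb hχ
  have h4 : principalBlock M H = blockOf M (χ : H → ℂ) := blockOf_eq h1
  rw [h3, ← h4]
  exact h2

omit hchar in
theorem block_univ_of_pgroup (hM : IsPModular p M) {H : Type u} [Group H] [Finite H] (hH : IsPGroup p H)
    {b : Set (IrrCharacter H)} (hb : IsPBlock M b) : b = Set.univ :=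
  block_univ_of_centralizer_le hM (P := ⊤) (hH.of_equiv Subgroup.topEquiv.symm) le_top hb

variable {F : Type u} [Group F] [Finite F] {Q : Subgroup F} {c : MonoidAlgebra (Kf M) F}

/-- the block of the Frobenius group -/
theorem frob_block (hM : IsPModular p M) [hQn : Q.Normal] (hQp : IsPGroup p Q)
    (hQC : Subgroup.centralizer (Q : Set F) = Q) (hind : ¬ p ∣ Q.index) (hab : ∀ x ∈ Q, ∀ y ∈ Q, x * y = y * x) :
    ∃ c : MonoidAlgebra (Kf M) F, AbMax p (Set.univ : Set (IrrCharacter F)) Q c := by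
  haveI : M.IsPrime := hMm.isPrime
  have h1 : principalBlock M F = Set.univ :=
    block_univ_of_centralizer_le hM hQp hQC.le BlockThird.isPBlock_principal
  have h2 : IsPBlock M (Set.univ : Set (IrrCharacter F)) := h1 ▸ BlockThird.isPBlock_principal
  apply H76Nil.exists_abMax h2 _ hab
  rw [← h1, PrincPairs.isDefectGroup_principal_iff hM]
  obtain ⟨k, hk⟩ := IsPGroup.iff_card.1 hQp
  refine ⟨Sylow.ofCard Q ?_, rfl⟩
  rw [hk]
  congr 1
  have h3 := Q.card_mul_index
  rw [← h3, Nat.factorization_mul Nat.card_pos.ne' Subgroup.index_ne_zero_of_finite, Finsupp.add_apply,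
    Nat.factorization_eq_zero_of_not_dvd hind, add_zero, hk, Nat.factorization_pow, Finsupp.smul_apply,
    hp.out.factorization_self, smul_eq_mul, mul_one]

theorem frob_TT (hM : IsPModular p M) [hQn : Q.Normal] (hQp : IsPGroup p Q)
    (hQC : Subgroup.centralizer (Q : Set F) = Q) (h : AbMax p (Set.univ : Set (IrrCharacter F)) Q c) :
    TT Q c = ⊤ := by
  rw [eq_top_iff]
  intro t _
  have hN : ∀ t : F, t ∈ Subgroup.normalizer (Q : Set F) := by
    intro t
    rw [Subgroup.normalizer_eq_top]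
    exact Subgroup.mem_top t
  refine ⟨hN t, ?_⟩
  have hCn : IsPGroup p (Cn Q) := by rw [Cn, hQC]; exact hQp
  have h1 : IsBlk (Cn Q) (BrauerMap.cj t c) :=
    h.pair.2.cj_normalizer (normalizer_le_normalizer_centralizer Q (hN t))
  obtain ⟨a1, a2⟩ := blkOf_spec h1
  obtain ⟨b1, b2⟩ := blkOf_spec h.pair.2
  have e1 : blkOf M (Cn Q) (BrauerMap.cj t c) = blkOf M (Cn Q) c := by
    rw [block_univ_of_pgroup hM hCn a1, block_univ_of_pgroup hM hCn b1]
  rw [e1] at a2
  exact a2.symm.trans b2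

theorem frob_ei (hM : IsPModular p M) [hQn : Q.Normal] (hQp : IsPGroup p Q)
    (hQC : Subgroup.centralizer (Q : Set F) = Q) (h : AbMax p (Set.univ : Set (IrrCharacter F)) Q c) :
    ei Q c = Q.index := by
  rw [ei, frob_TT hM hQp hQC h, Cn, hQC, Subgroup.relIndex_top_right]

/-- the generalized decomposition numbers are the values on `Q` -/
theorem frob_rho (hM : IsPModular p M) [hQn : Q.Normal] (hQp : IsPGroup p Q)
    (hQC : Subgroup.centralizer (Q : Set F) = Q) (h : FreeMax p (Set.univ : Set (IrrCharacter F)) Q c) :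
    RhoSys (M := M) p Q c (fun _ => 1) (fun η v => (η : F → ℂ) v) := by
  haveI : M.IsPrime := hMm.isPrime
  refine ⟨fun _ => Or.inl rfl, fun _ _ _ _ _ => rfl, ?_, ?_⟩
  · intro χ θ
    haveI := Fintype.ofFinite Q
    obtain ⟨n, hn⟩ := (χ.2.isCharacter.restrict Q).isGeneralized.classInner_int
      (isIrrCharacter_of_unitsHom θ).isCharacter.isGeneralized
    exact ⟨n, by rw [← hn, ft_def, classInner_def]⟩
  · intro χ v hv
    have hv' : (v : F) ≠ 1 := fun h' => hv (Subtype.ext h')
    have hR : Subgroup.zpowers (v : F) ≤ Q := zpowers_le_of v.2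
    have hfr := h.fr hR (zpowers_ne_bot hv')
    rw [frob_TT hM hQp hQC h.max, top_inf_eq, Cn, Cn, hQC] at hfr
    have hvR : (v : F) ∈ Cn (Subgroup.zpowers (v : F)) := mem_Cn_zpowers.2 (Commute.refl _)
    have hRp : IsPGroup p (Cn (Subgroup.zpowers (v : F))) := hQp.to_le hfr
    have hbu : bQ p Q c (Subgroup.zpowers (v : F)) = Set.univ :=
      block_univ_of_pgroup hM hRp (isPBlock_bQ h.max.pair hR)
    have hN := nil_of_fr hM h.max hR (h.fr hR (zpowers_ne_bot hv'))
    have h1 : bl p Q c (Subgroup.zpowers (v : F)) (χ : F → ℂ) v = (χ : F → ℂ) v := by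
      apply bl_eq_self _ hvR
      rw [hbu]
      haveI := Fintype.ofFinite (Cn (Subgroup.zpowers (v : F)))
      have hcl : IsClassFunction (Cn (Subgroup.zpowers (v : F)))
          (fun x : Cn (Subgroup.zpowers (v : F)) => (χ : F → ℂ) x) := χ.2.isClassFunction.restrict _
      rw [hcl.expansion]
      refine Submodule.sum_mem _ fun ξ _ => Submodule.smul_mem _ _ (Submodule.subset_span ⟨ξ, trivial, rfl⟩)
    have h2 : ph p Q c (Subgroup.zpowers (v : F)) 1 = 1 := by
      have := ph_coe hM h.max hR hN (ξ := ⟨fun _ => 1, isIrrCharacter_fun_one⟩) (by rw [hbu]; trivial) 1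
        (by rw [Subgroup.coe_one]; exact not_dvd_one)
      exact this
    rw [Dh, h1, h2, div_one, Int.cast_one, one_mul]

end Cfsg.Agent.Lib.AbSec
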