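import Cfsg.Agent.Lib.AbPI5
import Mathlib.RingTheory.ZMod.UnitsCyclic

/-!
# Matching inertial actions on cyclic defect groups (helper77)
-/

set_option autoImplicit false
set_option linter.all false

namespace Cfsg.Agent.Lib.AbSec

open Cfsg Cfsg.Agent.Lib.BlockRing Cfsg.Agent.Lib.BlockGA Cfsg.Agent.Lib.BlockIdem
open Cfsg.Agent.Lib.BlkIdem Cfsg.Agent.Lib.BlockAlg Cfsg.Agent.Lib.PairAlg Cfsg.Agent.Lib.PairMax
open Cfsg.Agent.Lib.BrauerPairs Cfsg.Agent.Lib.NormalPBlk Cfsg.Agent.Lib.DefPairs
open Cfsg.Agent.Lib.BlkTransport Cfsg.Agent.Lib.BlkFus Cfsg.Agent.Lib.InducedPair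
open Cfsg.Agent.Lib.BlockCount Cfsg.Agent.Lib.BlockPair Cfsg.Agent.Lib.PairCount
open Cfsg.Agent.Lib.AbFusion Cfsg.Agent.Lib.AbCount Cfsg.Agent.Lib.BlockSecond
open scoped Classical

universe u v

/-- few automorphisms of order dividing `e` -/
theorem card_pow_eq_one_mulAut {p : ℕ} [hp : Fact p.Prime] {C : Type u} [Group C] [Finite C] [IsCyclic C] {a : ℕ}
    (hC : Nat.card C = p ^ a) {e : ℕ} (he : e ∣ p - 1) (A : Subgroup (MulAut C)) (hA : Nat.card A = e)
    {α : MulAut C} (hα : α ^ e = 1) : α ∈ A := by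
  have he0 : 0 < e := by rw [← hA]; exact Nat.card_pos
  by_cases hp2 : p = 2
  · have he1 : e = 1 := by
      rw [hp2] at he
      exact Nat.dvd_one.1 he
    rw [he1, pow_one] at hα
    rw [hα]
    exact one_mem _
  · haveI hcyc : IsCyclic (MulAut C) := by
      have h1 : IsCyclic (ZMod (Nat.card C))ˣ := by
        rw [hC]
        exact ZMod.isCyclic_units_of_prime_pow p hp.out hp2 a
      exact isCyclic_of_surjective (IsCyclic.mulAutMulEquiv C).symm (IsCyclic.mulAutMulEquiv C).symm.surjective
    haveI : Fintype (MulAut C) := Fintype.ofFinite _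
    have h1 := IsCyclic.card_pow_eq_one_le (α := MulAut C) he0
    have h2 : (Finset.univ.filter (fun x : MulAut C => x ∈ A)) ⊆ Finset.univ.filter (fun x : MulAut C => x ^ e = 1) := by
      intro x hx
      rw [Finset.mem_filter] at hx ⊢
      refine ⟨Finset.mem_univ _, ?_⟩
      have h3 : (⟨x, hx.2⟩ : A) ^ e = 1 := by
        rw [← hA]
        exact pow_card_eq_one'
      exact congrArg Subtype.val h3
    have h4 : (Finset.univ.filter (fun x : MulAut C => x ∈ A)).card = e := by
      rw [← hA, Nat.card_eq_fintype_card, Fintype.card_subtype]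
    have h5 := Finset.eq_of_subset_of_card_le h2 (by rw [h4]; exact h1)
    have h6 : α ∈ Finset.univ.filter (fun x : MulAut C => x ^ e = 1) := Finset.mem_filter.2 ⟨Finset.mem_univ _, hα⟩
    rw [← h5] at h6
    exact (Finset.mem_filter.1 h6).2

variable {p : ℕ} [hp : Fact p.Prime] {M : Ideal AlgInt} [hMm : M.IsMaximal] [hchar : CharP (Kf M) p]
  {G : Type u} [Group G] [Finite G] {B : Set (IrrCharacter G)} {P : Subgroup G} {c : MonoidAlgebra (Kf M) G}
  {G' : Type v} [Group G'] [Finite G'] {B' : Set (IrrCharacter G')} {P' : Subgroup G'}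
  {c' : MonoidAlgebra (Kf M) G'}

/-- the action of the inertial group -/
noncomputable def act (P : Subgroup G) (c : MonoidAlgebra (Kf M) G) : TT P c →* MulAut P where
  toFun t := MulEquiv.ofBijective (au t) (au_bij t)
  map_one' := by
    ext v
    show ((au (1 : TT P c) v : P) : G) = v
    rw [au_apply]
    simp
  map_mul' s t := by
    ext v
    show ((au (s * t) v : P) : G) = ((au s (au t v) : P) : G)
    rw [au_mul]
    rfl

theorem act_apply (t : TT P c) (v : P) : act P c t v = au t v := rfl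

theorem card_range_act (h : AbMax p B P c) : Nat.card (act P c).range = ei P c := by
  have hker : (act P c).ker = (Cn P).subgroupOf (TT P c) := by
    ext t
    rw [MonoidHom.mem_ker, Subgroup.mem_subgroupOf, Subgroup.mem_centralizer_iff]
    constructor
    · intro h0 x hx
      have h1 := DFunLike.congr_fun h0 ⟨x, hx⟩
      have h2 : (t : G) * x * (t : G)⁻¹ = x := congrArg Subtype.val h1
      rw [mul_inv_eq_iff_eq_mul] at h2
      exact h2.symm
    · intro h0
      ext v
      show (t : G) * v * (t : G)⁻¹ = v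
      rw [mul_inv_eq_iff_eq_mul]
      exact (h0 v v.2).symm
  rw [← Subgroup.index_ker, hker]
  rfl

/-- on cyclic defect groups the inertial index determines the action -/
theorem match_of_cyclic (h : AbMax p B P c) (h' : AbMax p B' P' c') (hcyc : IsCyclic P) (φ : P' ≃* P)
    (he : ei P' c' = ei P c) (hd : ei P c ∣ p - 1) : Match φ c c' := by
  obtain ⟨a, ha⟩ := IsPGroup.iff_card.1 h.pair.1
  have hA := card_range_act h
  have hA' : Nat.card ((act P' c').range.map (MulAut.congr φ).toMonoidHom) = ei P c := by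
    rw [← he, ← card_range_act h']
    exact Nat.card_congr ((act P' c').range.equivMapOfInjective (MulAut.congr φ).toMonoidHom
      (MulAut.congr φ).injective).toEquiv.symm
  have hpow : ∀ (A : Subgroup (MulAut P)), Nat.card A = ei P c → ∀ α ∈ A, α ^ ei P c = 1 := by
    intro A hA α hα
    have h3 : (⟨α, hα⟩ : A) ^ ei P c = 1 := by
      rw [← hA]
      exact pow_card_eq_one'
    exact congrArg Subtype.val h3
  constructor
  · intro t
    have h1 := card_pow_eq_one_mulAut ha hd _ hA' (hpow _ hA (act P c t) ⟨t, rfl⟩)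
    obtain ⟨_, ⟨t', rfl⟩, ht'⟩ := h1
    refine ⟨t', fun w => ?_⟩
    have h2 := DFunLike.congr_fun ht' (φ w)
    have h3 : (MulAut.congr φ (act P' c' t')) (φ w) = φ (act P' c' t' w) := by
      show φ (act P' c' t' (φ.symm (φ w))) = _
      rw [MulEquiv.symm_apply_apply]
    exact h3.symm.trans h2
  · intro t'
    have h1 := card_pow_eq_one_mulAut ha hd _ hA (hpow _ hA' (MulAut.congr φ (act P' c' t'))
      ⟨_, ⟨t', rfl⟩, rfl⟩)
    obtain ⟨t, ht⟩ := h1
    refine ⟨t, fun w => ?_⟩
    have h2 := DFunLike.congr_fun ht (φ w)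
    have h3 : (MulAut.congr φ (act P' c' t')) (φ w) = φ (act P' c' t' w) := by
      show φ (act P' c' t' (φ.symm (φ w))) = _
      rw [MulEquiv.symm_apply_apply]
    exact h3.symm.trans h2.symm

end Cfsg.Agent.Lib.AbSec
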