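import Cfsg.Agent.Lib.AbFrob1
import Cfsg.Agent.Lib.BlockCore

/-!
# Characters of Frobenius groups with cyclic kernel, signs (helper77)
-/

set_option autoImplicit false
set_option linter.all false

namespace Cfsg.Agent.Lib.AbSec

open Cfsg Cfsg.Agent.Lib.BlockRing Cfsg.Agent.Lib.BlockGA Cfsg.Agent.Lib.BlockIdem
open Cfsg.Agent.Lib.BlkIdem Cfsg.Agent.Lib.BlockAlg Cfsg.Agent.Lib.PairAlg Cfsg.Agent.Lib.PairMax
open Cfsg.Agent.Lib.BrauerPairs Cfsg.Agent.Lib.NormalPBlk Cfsg.Agent.Lib.DefPairs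
open Cfsg.Agent.Lib.BlkTransport Cfsg.Agent.Lib.BlkFus Cfsg.Agent.Lib.InducedPair
open Cfsg.Agent.Lib.BlockCount Cfsg.Agent.Lib.BlockPair Cfsg.Agent.Lib.PairCount
open Cfsg.Agent.Lib.AbFusion Cfsg.Agent.Lib.AbCount Cfsg.Agent.Lib.BlockSecond
open Cfsg.Agent.Lib.CharBasic Cfsg.Agent.Lib.Contrib Cfsg.Agent.Lib.AbFT Cfsg.Agent.Lib.AbWeis
open MonoidAlgebra (single)
open scoped ComplexConjugate Classical

universe u v

variable {p : ℕ} [hp : Fact p.Prime] {M : Ideal AlgInt} [hMm : M.IsMaximal] [hchar : CharP (Kf M) p]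
  {F : Type u} [Group F] [Finite F] {Q : Subgroup F} {c : MonoidAlgebra (Kf M) F}

/-- the restriction to `Q` -/
noncomputable abbrev rq (Q : Subgroup F) : IrrCharacter F → Q → ℂ := fun η v => (η : F → ℂ) v

theorem ft_rq_nat (η : IrrCharacter F) (θ : Q →* ℂˣ) : ∃ n : ℕ, ft (rq Q η) θ = n := by
  haveI := Fintype.ofFinite Q
  obtain ⟨n, hn⟩ := (η.2.isCharacter.restrict Q).classInner_nat (isIrrCharacter_of_unitsHom θ).isCharacter
  exact ⟨n, by rw [← hn, ft_def, classInner_def]⟩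

/-- the multiplicities -/
noncomputable def nq (Q : Subgroup F) (η : IrrCharacter F) (θ : Q →* ℂˣ) : ℕ := (ft_rq_nat η θ).choose

theorem nq_spec (η : IrrCharacter F) (θ : Q →* ℂˣ) : ft (rq Q η) θ = nq Q η θ := (ft_rq_nat η θ).choose_spec

theorem sum_nq (hab : ∀ a b : Q, a * b = b * a) [Fintype (Q →* ℂˣ)] (η : IrrCharacter F) {d : ℕ}
    (hd : (η : F → ℂ) 1 = d) : ∑ θ : Q →* ℂˣ, nq Q η θ = d := by
  have h1 := inversion hab (rq Q η) 1
  have h2 : rq Q η 1 = d := by rw [← hd]; rfl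
  rw [h2] at h1
  have h3 : ∑ θ : Q →* ℂˣ, ft (rq Q η) θ * (θ 1 : ℂ) = ∑ θ : Q →* ℂˣ, (nq Q η θ : ℂ) := by
    refine Finset.sum_congr rfl fun θ _ => ?_
    rw [nq_spec, map_one, Units.val_one, mul_one]
  rw [h3] at h1
  exact_mod_cast h1.symm

theorem nq_one [hQn : Q.Normal] {η : IrrCharacter F} (hη : ∃ x ∈ Q, (η : F → ℂ) x ≠ (η : F → ℂ) 1) :
    nq Q η 1 = 0 := by
  haveI := Fintype.ofFinite F
  haveI := Fintype.ofFinite Q
  have h0 := (BlockCore.omega_normE_zero_or_one Q η.2).resolve_right (fun h1 => by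
    obtain ⟨x, hx, hne⟩ := hη
    exact hne ((BlockCore.omega_normE_eq_one_iff Q η.2).1 h1 x hx))
  rw [BlockCore.omega_normE] at h0
  have h1 : (Nat.card Q : ℂ)⁻¹ * ∑ n ∈ Finset.univ.filter (· ∈ Q), (η : F → ℂ) n = 0 := by
    rcases div_eq_zero_iff.1 h0 with h | h
    · exact h
    · exact absurd h (irr_one_ne_zero η)
  have h2 : ft (rq Q η) 1 = 0 := by
    rw [ft_def, ← h1]
    congr 1
    rw [Finset.sum_filter, sum_mem_eq Q (fun n => (η : F → ℂ) n)]
    refine Finset.sum_congr rfl fun a _ => ?_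
    simp
  rw [nq_spec] at h2
  exact_mod_cast h2

variable (hM : IsPModular p M) [hQn : Q.Normal] (hQp : IsPGroup p Q) (hQC : Subgroup.centralizer (Q : Set F) = Q)
  (h : FreeMax p (Set.univ : Set (IrrCharacter F)) Q c)

include hM hQp hQC h

/-- lower bound of the degree -/
theorem ei_le_degree {η : IrrCharacter F} (hη : ∃ x ∈ Q, (η : F → ℂ) x ≠ (η : F → ℂ) 1) {d : ℕ}
    (hd : (η : F → ℂ) 1 = d) : ei Q c ≤ d := by
  have hr := frob_rho hM hQp hQC h
  have hab := P_comm h.max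
  haveI := LinChar.finite_hom hab
  haveI := Fintype.ofFinite (Q →* ℂˣ)
  have h0 := nq_one hη
  have hd0 : d ≠ 0 := by
    rintro rfl
    exact irr_one_ne_zero η (by rw [hd, Nat.cast_zero])
  obtain ⟨θ, hθ⟩ : ∃ θ : Q →* ℂˣ, nq Q η θ ≠ 0 := by
    by_contra hcon
    push Not at hcon
    have := sum_nq hab η hd
    rw [Finset.sum_eq_zero fun θ _ => hcon θ] at this
    exact hd0 this.symm
  have hθ1 : θ ≠ 1 := by
    rintro rfl
    exact hθ h0
  have h1 : ∀ θ' : Q →* ℂˣ, rel Q c θ θ' → nq Q η θ' = nq Q η θ := by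
    intro θ' hrel
    have h2 := yc_rel (ρ := rq Q) hM h hr (χ := η) hrel
    rw [yc, yc, nq_spec, nq_spec, nq_spec] at h2
    have h3 : (nq Q η θ : ℂ) = nq Q η θ' := by linear_combination h2
    exact_mod_cast h3.symm
  have h4 := card_rel h hθ1
  have h5 : ∑ θ' : Q →* ℂˣ, (if rel Q c θ θ' then 1 else 0) = ei Q c := by
    have : ((∑ θ' : Q →* ℂˣ, (if rel Q c θ θ' then 1 else 0) : ℕ) : ℂ) = (ei Q c : ℂ) := by
      rw [← h4, Nat.cast_sum]
      refine Finset.sum_congr rfl fun θ' _ => ?_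
      by_cases hrel : rel Q c θ θ'
      · rw [iv_pos hrel, if_pos hrel, Nat.cast_one]
      · rw [iv_neg hrel, if_neg hrel, Nat.cast_zero]
    exact_mod_cast this
  rw [← h5, ← sum_nq hab η hd]
  refine Finset.sum_le_sum fun θ' _ => ?_
  by_cases hrel : rel Q c θ θ'
  · rw [if_pos hrel, h1 θ' hrel]
    exact Nat.pos_of_ne_zero hθ
  · rw [if_neg hrel]
    exact Nat.zero_le _

/-- the degree when all the multiplicities are equal -/
theorem degree_of_const {η : IrrCharacter F} (hη : ∃ x ∈ Q, (η : F → ℂ) x ≠ (η : F → ℂ) 1) {d : ℕ}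
    (hd : (η : F → ℂ) 1 = d) {a : ℤ} (ha : a = 1 ∨ a = -1) (hc : ∀ θ : Q →* ℂˣ, θ ≠ 1 → yc (rq Q) θ η = a) :
    d = Nat.card Q - 1 := by
  have hab := P_comm h.max
  haveI := LinChar.finite_hom hab
  haveI := Fintype.ofFinite (Q →* ℂˣ)
  have h0 := nq_one hη
  have h1 : ∀ θ : Q →* ℂˣ, θ ≠ 1 → nq Q η θ = 1 := by
    intro θ hθ
    have h2 := hc θ hθ
    rw [yc, nq_spec, nq_spec, h0, Nat.cast_zero, zero_sub] at h2
    have h3 : -(nq Q η θ : ℤ) = a := by exact_mod_cast h2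
    omega
  rw [← sum_nq hab η hd, ← Finset.add_sum_erase _ _ (Finset.mem_univ (1 : Q →* ℂˣ)), h0, zero_add,
    Finset.sum_congr rfl (fun θ hθ => h1 θ (Finset.ne_of_mem_erase hθ)), Finset.sum_const, smul_eq_mul, mul_one,
    Finset.card_erase_of_mem (Finset.mem_univ _), Finset.card_univ, ← Nat.card_eq_fintype_card, LinChar.card_hom hab]

omit hMm hchar hM hQp hQC h in
/-- sums of squares of two degrees -/
theorem sq_add_one_le {η : IrrCharacter F} (hη : ∃ x ∈ Q, (η : F → ℂ) x ≠ (η : F → ℂ) 1) {d : ℕ}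
    (hd : (η : F → ℂ) 1 = d) : d ^ 2 + 1 ≤ Nat.card F := by
  haveI := Fintype.ofFinite (IrrCharacter F)
  have h1 := sum_degree_sq (G := F)
  choose n hn0 hn using fun χ : IrrCharacter F => χ.2.exists_degree
  have h2 : ∑ χ : IrrCharacter F, n χ ^ 2 = Nat.card F := by
    have : ((∑ χ : IrrCharacter F, n χ ^ 2 : ℕ) : ℂ) = (Nat.card F : ℂ) := by
      rw [← h1]
      push_cast
      refine Finset.sum_congr ?_ fun χ _ => by rw [hn]
      ext; simp
    exact_mod_cast this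
  have hne : η ≠ ⟨fun _ => 1, isIrrCharacter_fun_one⟩ := by
    rintro rfl
    obtain ⟨x, -, hx⟩ := hη
    exact hx rfl
  have hd' : n η = d := by
    have := hn η
    rw [hd] at this
    exact_mod_cast this.symm
  have h1' : n ⟨fun _ => 1, isIrrCharacter_fun_one⟩ = 1 := by
    have := hn ⟨fun _ => 1, isIrrCharacter_fun_one⟩
    have e : ((⟨fun _ => 1, isIrrCharacter_fun_one⟩ : IrrCharacter F) : F → ℂ) 1 = 1 := rfl
    rw [e] at this
    exact_mod_cast this.symm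
  rw [← h2, ← Finset.add_sum_erase _ _ (Finset.mem_univ η), hd']
  apply Nat.add_le_add_left
  have := Finset.single_le_sum (f := fun χ => n χ ^ 2) (fun χ _ => Nat.zero_le _)
    (Finset.mem_erase.2 ⟨hne.symm, Finset.mem_univ _⟩)
  rw [h1'] at this
  simpa using this

omit hMm hchar hM hQp hQC h in
theorem sq_add_sq_add_one_le {η η' : IrrCharacter F} (hη : ∃ x ∈ Q, (η : F → ℂ) x ≠ (η : F → ℂ) 1)
    (hη' : ∃ x ∈ Q, (η' : F → ℂ) x ≠ (η' : F → ℂ) 1) (hne : η ≠ η') {d d' : ℕ}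
    (hd : (η : F → ℂ) 1 = d) (hd' : (η' : F → ℂ) 1 = d') : d ^ 2 + (d' ^ 2 + 1) ≤ Nat.card F := by
  haveI := Fintype.ofFinite (IrrCharacter F)
  have h1 := sum_degree_sq (G := F)
  choose n hn0 hn using fun χ : IrrCharacter F => χ.2.exists_degree
  have h2 : ∑ χ : IrrCharacter F, n χ ^ 2 = Nat.card F := by
    have : ((∑ χ : IrrCharacter F, n χ ^ 2 : ℕ) : ℂ) = (Nat.card F : ℂ) := by
      rw [← h1]
      push_cast
      refine Finset.sum_congr ?_ fun χ _ => by rw [hn]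
      ext; simp
    exact_mod_cast this
  have hne1 : η ≠ ⟨fun _ => 1, isIrrCharacter_fun_one⟩ := by
    rintro rfl
    obtain ⟨x, -, hx⟩ := hη
    exact hx rfl
  have hne2 : η' ≠ ⟨fun _ => 1, isIrrCharacter_fun_one⟩ := by
    rintro rfl
    obtain ⟨x, -, hx⟩ := hη'
    exact hx rfl
  have e1 : n η = d := by
    have := hn η
    rw [hd] at this
    exact_mod_cast this.symm
  have e2 : n η' = d' := by
    have := hn η'
    rw [hd'] at this
    exact_mod_cast this.symm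
  have e3 : n ⟨fun _ => 1, isIrrCharacter_fun_one⟩ = 1 := by
    have := hn ⟨fun _ => 1, isIrrCharacter_fun_one⟩
    have e : ((⟨fun _ => 1, isIrrCharacter_fun_one⟩ : IrrCharacter F) : F → ℂ) 1 = 1 := rfl
    rw [e] at this
    exact_mod_cast this.symm
  rw [← h2, ← Finset.add_sum_erase _ _ (Finset.mem_univ η), e1]
  apply Nat.add_le_add_left
  rw [← Finset.add_sum_erase _ _ (Finset.mem_erase.2 ⟨hne.symm, Finset.mem_univ η'⟩), e2]
  apply Nat.add_le_add_left
  have := Finset.single_le_sum (f := fun χ => n χ ^ 2) (fun χ _ => Nat.zero_le _)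
    (Finset.mem_erase.2 ⟨hne2.symm, Finset.mem_erase.2 ⟨hne1.symm, Finset.mem_univ _⟩⟩)
  rw [e3] at this
  simpa using this

/-- the signs agree -/
theorem frob_sign {δ : IrrCharacter F → ℤ} {s : ℤ}
    (hs : ∀ η ∈ (Set.univ : Set (IrrCharacter F)), (∀ a : ℤ, a = 1 ∨ a = -1 →
      ∃ θ : Q →* ℂˣ, θ ≠ 1 ∧ yc (rq Q) θ η ≠ a) → δ η = s)
    {η η' : IrrCharacter F} (hη : ∃ x ∈ Q, (η : F → ℂ) x ≠ (η : F → ℂ) 1)
    (hη' : ∃ x ∈ Q, (η' : F → ℂ) x ≠ (η' : F → ℂ) 1) : δ η = δ η' := by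
  obtain ⟨m, hm1, hem, -, -, -⟩ := free_main hM h
  have hei := frob_ei hM hQp hQC h.max
  have hF : Nat.card F = Nat.card Q * ei Q c := by rw [hei, Q.card_mul_index]
  have hQ1 : Nat.card Q = ei Q c * m + 1 := by
    have : 0 < Nat.card Q := Nat.card_pos
    omega
  rcases hm1.eq_or_lt with hm | hm
  · -- only one character
    have : η = η' := by
      by_contra hne
      obtain ⟨d, -, hd⟩ := η.2.exists_degree
      obtain ⟨d', -, hd'⟩ := η'.2.exists_degree
      have h1 := sq_add_sq_add_one_le hη hη' hne hd hd'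
      have h2 := ei_le_degree hM hQp hQC h hη hd
      have h3 := ei_le_degree hM hQp hQC h hη' hd'
      rw [hF, hQ1, ← hm] at h1
      have h4 := Nat.mul_le_mul h2 h2
      have h5 := Nat.mul_le_mul h3 h3
      have h6 := Nat.le_mul_self (ei Q c)
      rw [← sq d] at h4
      rw [← sq d'] at h5
      have h7 : (ei Q c * 1 + 1) * ei Q c = ei Q c * ei Q c + ei Q c := by ring
      omega
    rw [this]
  · have key : ∀ η : IrrCharacter F, (∃ x ∈ Q, (η : F → ℂ) x ≠ (η : F → ℂ) 1) → δ η = s := by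
      intro η hη
      apply hs η trivial
      intro a ha
      by_contra hcon
      push Not at hcon
      obtain ⟨d, -, hd⟩ := η.2.exists_degree
      have h1 := degree_of_const hM hQp hQC h hη hd ha hcon
      have h2 := sq_add_one_le hη hd
      rw [h1, hF, hQ1, Nat.add_sub_cancel] at h2
      have he : 1 ≤ ei Q c := Nat.pos_of_ne_zero ei_ne_zero
      have h3 : 2 ≤ m := hm
      have h4 : (ei Q c * m) ^ 2 = (ei Q c * m) * (ei Q c * m) := sq _
      have h5 : ei Q c * 2 ≤ ei Q c * m := Nat.mul_le_mul_left _ h3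
      have h6 : (ei Q c * 2) * (ei Q c * m) ≤ (ei Q c * m) * (ei Q c * m) := Nat.mul_le_mul_right _ h5
      nlinarith
    rw [key η hη, key η' hη']

end Cfsg.Agent.Lib.AbSec
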