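import Cfsg.Agent.Lib.AbFree3

/-!
# Integrality of values divided by centralizer orders (helper77)
-/

set_option autoImplicit false
set_option linter.all false

namespace Cfsg.Agent.Lib.AbSec

open Cfsg Cfsg.Agent.Lib.BlockRing Cfsg.Agent.Lib.BlockGA Cfsg.Agent.Lib.BlockIdem
open Cfsg.Agent.Lib.BlkIdem Cfsg.Agent.Lib.BlockAlg Cfsg.Agent.Lib.PairAlg Cfsg.Agent.Lib.PairMax
open Cfsg.Agent.Lib.BrauerPairs Cfsg.Agent.Lib.NormalPBlk Cfsg.Agent.Lib.DefPairs
open Cfsg.Agent.Lib.BlkTransport Cfsg.Agent.Lib.BlkFus Cfsg.Agent.Lib.InducedPair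
open Cfsg.Agent.Lib.BlockCount Cfsg.Agent.Lib.BlockPair Cfsg.Agent.Lib.PairCount
open Cfsg.Agent.Lib.AbFusion Cfsg.Agent.Lib.AbCount Cfsg.Agent.Lib.BlockSecond
open Cfsg.Agent.Lib.CharBasic Cfsg.Agent.Lib.Contrib Cfsg.Agent.Lib.AbFT Cfsg.Agent.Lib.AbWeis
open MonoidAlgebra (single)
open scoped ComplexConjugate Classical

universe u v

section general

variable {G : Type u} [Group G] [Finite G]

theorem omega_single_int (ξ : IrrCharacter G) {v : G} (hv : ∀ g : G, Commute v g) :
    IsIntegral ℤ (omega (ξ : G → ℂ) (single v 1)) := by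
  have h1 : (omega (ξ : G → ℂ) (single v 1)) ^ orderOf v = 1 := by
    rw [← omega_pow ξ.2 (single_mem_center hv), MonoidAlgebra.single_pow, one_pow, pow_orderOf_eq_one,
      ← MonoidAlgebra.one_def, omega_one (irr_one_ne_zero ξ)]
  exact IsIntegral.of_pow (orderOf_pos v) (by rw [h1]; exact isIntegral_one)

/-- averaging a character over a subgroup commuting with `x` -/
theorem avg_int (χ : IrrCharacter G) (S : Subgroup G) {x : G} (hx : ∀ s ∈ S, Commute x s) [Fintype S] :
    IsIntegral ℤ ((Nat.card S : ℂ)⁻¹ * ∑ s : S, (χ : G → ℂ) (x * s)) := by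
  obtain ⟨E, hE⟩ : ∃ E : Subgroup G, E = S ⊔ Subgroup.zpowers x := ⟨_, rfl⟩
  haveI := Fintype.ofFinite E
  have hSE : S ≤ E := hE ▸ le_sup_left
  have hxE : x ∈ E := hE ▸ (le_sup_right : Subgroup.zpowers x ≤ _) (Subgroup.mem_zpowers x)
  have hxc : ∀ g : E, Commute (⟨x, hxE⟩ : E) g := by
    intro g
    have h1 : E ≤ Subgroup.centralizer ({x} : Set G) := by
      rw [hE]
      apply sup_le
      · intro s hs
        rw [Subgroup.mem_centralizer_singleton_iff]
        exact (hx s hs).symm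
      · rw [Subgroup.zpowers_le, Subgroup.mem_centralizer_singleton_iff]
    have := Subgroup.mem_centralizer_singleton_iff.1 (h1 g.2)
    exact Subtype.ext this.symm
  obtain ⟨a, -, ha⟩ := (χ.2.isCharacter.restrict E).exists_coeff
  have h1 : ∀ s : S, (χ : G → ℂ) (x * s) = ∑ ψ : IrrCharacter E, (a ψ : ℂ) *
      (omega (ψ : E → ℂ) (single (⟨x, hxE⟩ : E) 1) * (ψ : E → ℂ) ⟨s, hSE s.2⟩) := by
    intro s
    have h2 := congrFun ha (⟨x, hxE⟩ * ⟨s, hSE s.2⟩)
    simp only [Subgroup.coe_mul, Finset.sum_apply, Pi.smul_apply, smul_eq_mul] at h2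
    rw [h2]
    refine Finset.sum_congr rfl fun ψ _ => ?_
    rw [irr_central_mul ψ hxc]
  rw [Finset.sum_congr rfl fun s _ => h1 s, Finset.sum_comm, Finset.mul_sum]
  apply IsIntegral.sum
  intro ψ _
  rw [← Finset.mul_sum, ← Finset.mul_sum]
  obtain ⟨n, hn⟩ := (ψ.2.isCharacter.isGeneralized.comp (Subgroup.inclusion hSE)).classInner_int
    (isGeneralized_one (G := S))
  have h3 : (Nat.card S : ℂ)⁻¹ * ∑ s : S, (ψ : E → ℂ) ⟨s, hSE s.2⟩ = n := by
    rw [← hn, classInner_def]
    congr 1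
    refine Finset.sum_congr rfl fun s _ => ?_
    simp only [Function.comp, Pi.one_apply, map_one, mul_one]
    rfl
  have h4 : (Nat.card S : ℂ)⁻¹ * ((a ψ : ℂ) * (omega (ψ : E → ℂ) (single (⟨x, hxE⟩ : E) 1) *
      ∑ s : S, (ψ : E → ℂ) ⟨s, hSE s.2⟩)) = (a ψ : ℂ) * (omega (ψ : E → ℂ) (single (⟨x, hxE⟩ : E) 1) * n) := by
    rw [← h3]; ring
  rw [h4]
  refine IsIntegral.mul (isIntegral_natCast _) (IsIntegral.mul (omega_single_int ψ hxc) (isIntegral_intCast n))

/-- **Divisibility.** -/
theorem div_centralizer {p : ℕ} {M : Ideal AlgInt} (hM : IsPModular p M) (hp : p.Prime) {a : IrrCharacter G → ℂ}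
    (ha : ∀ χ, MemLocalRing M (a χ)) (hvan : ∀ g : G, p ∣ orderOf g → ∑ χ : IrrCharacter G, a χ * (χ : G → ℂ) g = 0)
    (x : G) : MemLocalRing M ((∑ χ : IrrCharacter G, a χ * (χ : G → ℂ) x) /
      (Nat.card (Subgroup.centralizer ({x} : Set G)) : ℂ)) := by
  haveI : M.IsPrime := hM.2.1.isPrime
  haveI : Fact p.Prime := ⟨hp⟩
  by_cases hx : p ∣ orderOf x
  · rw [hvan x hx, zero_div]; exact loc_zero
  obtain ⟨S⟩ : Nonempty (Sylow p (Subgroup.centralizer ({x} : Set G))) := inferInstance
  obtain ⟨T, hT⟩ : ∃ T : Subgroup G, T = (S : Subgroup (Subgroup.centralizer ({x} : Set G))).map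
    (Subgroup.subtype _) := ⟨_, rfl⟩
  haveI := Fintype.ofFinite T
  have hTx : ∀ s ∈ T, Commute x s := by
    intro s hs
    rw [hT] at hs
    obtain ⟨y, -, rfl⟩ := hs
    exact (Subgroup.mem_centralizer_singleton_iff.1 y.2).symm
  have hTp : IsPGroup p T := by
    rw [hT]
    exact S.isPGroup'.map _
  have hTcard : Nat.card T = Nat.card (S : Subgroup (Subgroup.centralizer ({x} : Set G))) := by
    rw [hT]
    exact Nat.card_congr (Subgroup.equivMapOfInjective (S : Subgroup (Subgroup.centralizer ({x} : Set G)))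
      (Subgroup.subtype _) (Subgroup.subtype_injective _)).toEquiv.symm
  have hindex : Nat.card (Subgroup.centralizer ({x} : Set G)) =
      Nat.card T * (S : Subgroup (Subgroup.centralizer ({x} : Set G))).index := by
    rw [hTcard, Subgroup.card_mul_index]
  have hni : ¬ p ∣ (S : Subgroup (Subgroup.centralizer ({x} : Set G))).index := S.not_dvd_index
  have h1 : ∑ s : T, ∑ χ : IrrCharacter G, a χ * (χ : G → ℂ) (x * s) = ∑ χ : IrrCharacter G, a χ * (χ : G → ℂ) x := by
    rw [Finset.sum_eq_single (1 : T)]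
    · simp only [Subgroup.coe_one, mul_one]
    · intro s _ hs
      apply hvan
      have hs1 : (s : G) ≠ 1 := fun h' => hs (Subtype.ext h')
      obtain ⟨k, hk⟩ := (IsPGroup.iff_orderOf.1 hTp) s
      rw [← Subgroup.orderOf_coe] at hk
      have hk0 : k ≠ 0 := by
        rintro rfl
        rw [pow_zero, orderOf_eq_one_iff] at hk
        exact hs1 hk
      have hcop : Nat.Coprime (orderOf x) (orderOf (s : G)) := by
        rw [hk]
        exact Nat.Coprime.pow_right _ ((Nat.Prime.coprime_iff_not_dvd hp).2 hx).symm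
      rw [(hTx s s.2).orderOf_mul_eq_mul_orderOf_of_coprime hcop, hk]
      exact Dvd.dvd.mul_left (dvd_pow_self p hk0) _
    · intro h'
      exact absurd (Finset.mem_univ _) h'
  have h2 : (∑ χ : IrrCharacter G, a χ * (χ : G → ℂ) x) / (Nat.card (Subgroup.centralizer ({x} : Set G)) : ℂ) =
      (((S : Subgroup (Subgroup.centralizer ({x} : Set G))).index : ℕ) : ℂ)⁻¹ *
        ∑ χ : IrrCharacter G, a χ * ((Nat.card T : ℂ)⁻¹ * ∑ s : T, (χ : G → ℂ) (x * s)) := by
    rw [← h1, hindex, Finset.sum_comm]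
    push_cast
    rw [div_eq_mul_inv, mul_inv, Finset.sum_mul, Finset.mul_sum]
    refine Finset.sum_congr rfl fun χ _ => ?_
    rw [← Finset.mul_sum]
    ring
  rw [h2]
  refine loc_mul (loc_inv_natCast hM hni) (loc_sum fun χ _ => loc_mul (ha χ) (loc_of_isIntegral (avg_int χ T hTx)))

end general

variable {p : ℕ} [hp : Fact p.Prime] {M : Ideal AlgInt} [hMm : M.IsMaximal] [hchar : CharP (Kf M) p]
  {G : Type u} [Group G] [Finite G] {B : Set (IrrCharacter G)} {P : Subgroup G} {c : MonoidAlgebra (Kf M) G}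

/-- the idempotent of a nilpotent local block as a sum of characters -/
theorem eh_eq_sum (hM : IsPModular p M) (h : AbMax p B P c) {R : Subgroup G} (hR : R ≤ P) (hN : Nil p P c R)
    (g : Cn R) : (Nat.card (Cn R) : ℂ) * (eh p P c R).coeff (g : G) =
      ph p P c R 1 * ∑ ξ : IrrCharacter (Cn R), (if ξ ∈ bQ p P c R then 1 else 0) * (ξ : Cn R → ℂ) g⁻¹ := by
  haveI := Fintype.ofFinite (Cn R)
  rw [eh, cid_coeff_coe, blockCoeff_eq_sum, ← mul_assoc, mul_inv_cancel₀ (Nat.cast_ne_zero.2 Nat.card_pos.ne'),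
    one_mul, Finset.mul_sum]
  refine Finset.sum_congr rfl fun ξ _ => ?_
  split_ifs with hξ
  · have h3 := ph_coe hM h hR hN hξ 1 (not_dvd_one)
    rw [Subgroup.coe_one] at h3
    rw [h3, one_mul, ξ.2.isCharacter.inv]
  · ring

/-- the values of the local idempotent -/
theorem eh_div (hM : IsPModular p M) (h : AbMax p B P c) {v : G} (hv : v ∈ P)
    (hN : Nil p P c (Subgroup.zpowers v)) {s : G} (hs : s ∈ Cn (Subgroup.zpowers v)) (hsp : ¬ p ∣ orderOf s) :
    MemLocalRing M ((Nat.card (Cn (Subgroup.zpowers v)) : ℂ) * (eh p P c (Subgroup.zpowers v)).coeff s /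
      (ph p P c (Subgroup.zpowers v) 1 * Nat.card (Subgroup.centralizer ({v * s} : Set G)))) := by
  haveI : M.IsPrime := hMm.isPrime
  haveI := Fintype.ofFinite (Cn (Subgroup.zpowers v))
  have hR := zpowers_le_of hv
  have hph := ph_one_ne hM h hR hN
  have h1 := div_centralizer (G := Cn (Subgroup.zpowers v)) hM hp.out
    (a := fun ξ => if ξ ∈ bQ p P c (Subgroup.zpowers v) then 1 else 0)
    (fun ξ => by split_ifs; exacts [loc_one, loc_zero]) (by
      intro g hg
      have h2 := eh_eq_sum hM h hR hN g⁻¹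
      rw [inv_inv, eh_reg hM h.pair hR (by rw [Subgroup.coe_inv, orderOf_inv, Subgroup.orderOf_coe]; exact hg),
        mul_zero] at h2
      exact (mul_eq_zero.1 h2.symm).resolve_left hph) (⟨s, hs⟩⁻¹)
  rw [eh_eq_sum hM h hR hN ⟨s, hs⟩, mul_div_mul_left _ _ hph]
  have h2 : Nat.card (Subgroup.centralizer ({(⟨s, hs⟩ : Cn (Subgroup.zpowers v))⁻¹} : Set (Cn (Subgroup.zpowers v)))) =
      Nat.card (Subgroup.centralizer ({v * s} : Set G)) := by
    have hle : Subgroup.centralizer ({v * s} : Set G) ≤ Cn (Subgroup.zpowers v) := by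
      intro g hg
      rw [Subgroup.mem_centralizer_singleton_iff] at hg
      rw [mem_Cn_zpowers]
      have hvs : Commute v s := mem_Cn_zpowers.1 hs
      have hc : v * s = (g * v * g⁻¹) * (g * s * g⁻¹) := by
        have : g * (v * s) * g⁻¹ = v * s := by rw [hg, mul_inv_cancel_right]
        rw [← this]; group
      obtain ⟨k, hk⟩ := orderOf_mem h.pair.1 hv
      have hord : orderOf (g * v * g⁻¹) = p ^ k := by
        rw [← hk]
        simpa using orderOf_injective (MulAut.conj g).toMonoidHom (MulAut.conj g).injective v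
      have hcom : Commute (g * v * g⁻¹) (g * s * g⁻¹) := by
        have := hvs.eq
        show g * v * g⁻¹ * (g * s * g⁻¹) = g * s * g⁻¹ * (g * v * g⁻¹)
        calc g * v * g⁻¹ * (g * s * g⁻¹) = g * (v * s) * g⁻¹ := by group
          _ = g * (s * v) * g⁻¹ := by rw [this]
          _ = _ := by group
      have := (eq_of_comm_of_orders hp.out hvs hcom hc hk hord hsp (by rwa [orderOf_conj_dvd])).1
      show v * g = g * v
      calc v * g = (g * v * g⁻¹) * g := by rw [← this]
        _ = g * v := by group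
    have heq : Subgroup.centralizer ({(⟨s, hs⟩ : Cn (Subgroup.zpowers v))⁻¹} : Set (Cn (Subgroup.zpowers v))) =
        (Subgroup.centralizer ({v * s} : Set G)).subgroupOf (Cn (Subgroup.zpowers v)) := by
      ext g
      rw [Subgroup.mem_subgroupOf, Subgroup.mem_centralizer_singleton_iff, Subgroup.mem_centralizer_singleton_iff]
      have hgv : Commute v (g : G) := mem_Cn_zpowers.1 g.2
      constructor
      · intro h3
        have h4 : (g : G) * s⁻¹ = s⁻¹ * g := congrArg Subtype.val h3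
        have h5 : Commute (g : G) s := (Commute.inv_right_iff (a := (g : G)) (b := s)).1 h4
        exact (hgv.symm.mul_right h5).eq
      · intro h3
        have h4 : Commute (g : G) (v * s) := h3
        have h5 : Commute (g : G) s := by
          have := hgv.symm.inv_right.mul_right h4
          rwa [inv_mul_cancel_left] at this
        exact Subtype.ext h5.inv_right.eq
    rw [heq, card_subgroupOf_eq hle]
  rw [h2] at h1
  exact h1

end Cfsg.Agent.Lib.AbSec
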