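import Cfsg.Agent.Lib.AbPI1

/-!
# The columns at `p`-singular elements; values at `p`-singular elements (helper77)
-/

set_option autoImplicit false
set_option linter.all false

namespace Cfsg.Agent.Lib.AbSec

open Cfsg Cfsg.Agent.Lib.BlockRing Cfsg.Agent.Lib.BlockGA Cfsg.Agent.Lib.BlockIdem
open Cfsg.Agent.Lib.BlkIdem Cfsg.Agent.Lib.BlockAlg Cfsg.Agent.Lib.PairAlg Cfsg.Agent.Lib.PairMax
open Cfsg.Agent.Lib.BrauerPairs Cfsg.Agent.Lib.NormalPBlk Cfsg.Agent.Lib.DefPairs
open Cfsg.Agent.Lib.BlkTransport Cfsg.Agent.Lib.BlkFus Cfsg.Agent.Lib.InducedPair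
open Cfsg.Agent.Lib.BlockCount Cfsg.Agent.Lib.BlockPair Cfsg.Agent.Lib.PairCount
open Cfsg.Agent.Lib.AbFusion Cfsg.Agent.Lib.AbCount Cfsg.Agent.Lib.BlockSecond
open Cfsg.Agent.Lib.CharBasic Cfsg.Agent.Lib.Contrib Cfsg.Agent.Lib.AbFT Cfsg.Agent.Lib.AbWeis
open MonoidAlgebra (single)
open scoped ComplexConjugate Classical

universe u v

variable {p : ℕ} [hp : Fact p.Prime] {M : Ideal AlgInt} [hMm : M.IsMaximal] [hchar : CharP (Kf M) p]
  {G : Type u} [Group G] [Finite G] {B : Set (IrrCharacter G)} {P : Subgroup G} {c : MonoidAlgebra (Kf M) G}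
  {ε : Subgroup G → ℤ} {ρ : IrrCharacter G → P → ℂ}

theorem int_irr {H : Type u} [Group H] [Finite H] (ξ : IrrCharacter H) (g : H) : IsIntegral ℤ ((ξ : H → ℂ) g) := by
  obtain ⟨n, ρ, hρ⟩ := ξ.2.isCharacter
  rw [← hρ]
  exact CharValues.isIntegral_character ρ g

omit hp hMm hchar in
theorem card_centralizer_conj {x y : G} :
    Nat.card (Subgroup.centralizer ({y * x * y⁻¹} : Set G)) = Nat.card (Subgroup.centralizer ({x} : Set G)) := by
  have h1 : Subgroup.centralizer ({y * x * y⁻¹} : Set G) =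
      (Subgroup.centralizer ({x} : Set G)).map (MulAut.conj y).toMonoidHom := by
    ext g
    rw [Subgroup.mem_map_equiv, Subgroup.mem_centralizer_singleton_iff, Subgroup.mem_centralizer_singleton_iff]
    have e0 : (MulEquiv.symm (MulAut.conj y)) g = y⁻¹ * g * y := by simp [MulAut.conj_symm_apply]
    rw [e0]
    constructor
    · intro h
      calc y⁻¹ * g * y * x = y⁻¹ * (g * (y * x * y⁻¹)) * y := by group
        _ = y⁻¹ * ((y * x * y⁻¹) * g) * y := by rw [h]
        _ = _ := by group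
    · intro h
      calc g * (y * x * y⁻¹) = y * (y⁻¹ * g * y * x) * y⁻¹ := by group
        _ = y * (x * (y⁻¹ * g * y)) * y⁻¹ := by rw [h]
        _ = _ := by group
  rw [h1]
  exact Nat.card_congr ((Subgroup.centralizer ({x} : Set G)).equivMapOfInjective _ (MulAut.conj y).injective).toEquiv.symm

/-- `Σ_χ ρ_χ(v) conj χ(x)` is divisible by `|C(x)|` -/
theorem RhoSys.col_div (hM : IsPModular p M) (h : FreeMax p B P c) (hr : RhoSys (M := M) p P c ε ρ) [Fintype G]
    {v : P} (hv : v ≠ 1) (x : G) :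
    MemLocalRing M ((∑ χ : IrrCharacter G, ρ χ v * conj ((χ : G → ℂ) x)) /
      (Nat.card (Subgroup.centralizer ({x} : Set G)) : ℂ)) := by
  haveI : M.IsPrime := hMm.isPrime
  have hv' : (v : G) ≠ 1 := fun h' => hv (Subtype.ext h')
  have hNv := nil_of_fr hM h.max (zpowers_le_of v.2) (h.fr (zpowers_le_of v.2) (zpowers_ne_bot hv'))
  have h2 : ∀ χ : IrrCharacter G, ρ χ v * conj ((χ : G → ℂ) x) =
      ((ε (Subgroup.zpowers (v : G)) : ℂ) / ph p P c (Subgroup.zpowers (v : G)) 1) *
      (lin (χ : G → ℂ) (single (v : G) 1 * eh p P c (Subgroup.zpowers (v : G))) * conj ((χ : G → ℂ) x)) := by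
    intro χ
    rw [hr.val χ v hv, Dh, bl]
    ring
  rw [Finset.sum_congr rfl fun χ _ => h2 χ, ← Finset.mul_sum, col_gen]
  by_cases hz : ∀ y : G, (single (v : G) (1 : ℂ) * eh p P c (Subgroup.zpowers (v : G))).coeff (y * x * y⁻¹) = 0
  · rw [Finset.sum_congr rfl fun y _ => hz y, Finset.sum_const_zero, mul_zero, zero_div]
    exact loc_zero
  push Not at hz
  obtain ⟨y₀, hy₀⟩ := hz
  obtain ⟨a1, a2⟩ := supp_veh hM h.max v.2 hy₀
  obtain ⟨s, hs⟩ : ∃ s : G, s = (v : G)⁻¹ * (y₀ * x * y₀⁻¹) := ⟨_, rfl⟩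
  rw [← hs] at a1 a2
  have hx : y₀ * x * y₀⁻¹ = v * s := by rw [hs]; group
  have hsC : s ∈ Cn (Subgroup.zpowers (v : G)) := mem_Cn_zpowers.2 a1
  have h3 : ∑ y : G, (single (v : G) (1 : ℂ) * eh p P c (Subgroup.zpowers (v : G))).coeff (y * x * y⁻¹) =
      (Nat.card (Cn (Subgroup.zpowers (v : G))) : ℂ) * (eh p P c (Subgroup.zpowers (v : G))).coeff s := by
    have e1 : ∑ y : G, (single (v : G) (1 : ℂ) * eh p P c (Subgroup.zpowers (v : G))).coeff (y * x * y⁻¹) =
        ∑ y : G, (single (v : G) (1 : ℂ) * eh p P c (Subgroup.zpowers (v : G))).coeff (y * (v * s) * y⁻¹) := by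
      symm
      refine Fintype.sum_equiv (Equiv.mulRight y₀) _ _ fun y => ?_
      show _ = (single (v : G) (1 : ℂ) * eh p P c (Subgroup.zpowers (v : G))).coeff ((y * y₀) * x * (y * y₀)⁻¹)
      rw [← hx]
      congr 1
      group
    have e2 : ∀ y : G, (single (v : G) (1 : ℂ) * eh p P c (Subgroup.zpowers (v : G))).coeff (y * (v * s) * y⁻¹) =
        if y ∈ Cn (Subgroup.zpowers (v : G)) then (eh p P c (Subgroup.zpowers (v : G))).coeff s else 0 := by
      intro y
      by_cases hy : y ∈ Cn (Subgroup.zpowers (v : G))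
      · rw [if_pos hy, MonoidAlgebra.coeff_single_mul_apply, one_mul]
        have e3 : (v : G)⁻¹ * (y * (v * s) * y⁻¹) = y * s * y⁻¹ := by
          have := (mem_Cn_zpowers.1 hy).eq
          have h4 : (v : G)⁻¹ * y = y * (v : G)⁻¹ := (mem_Cn_zpowers.1 hy).inv_left.eq
          calc (v : G)⁻¹ * (y * (v * s) * y⁻¹) = ((v : G)⁻¹ * y) * (v * s) * y⁻¹ := by group
            _ = (y * (v : G)⁻¹) * (v * s) * y⁻¹ := by rw [h4]
            _ = _ := by group
        rw [e3]
        have h5 := (BrauerMap.mem_fixAlg_iff_coeff.1 (BrauerMap.mem_ZAlg.1 (eh_ZAlg (p := p) (P := P) (c := c)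
          (Subgroup.zpowers (v : G)))).2) y hy s
        exact h5
      · rw [if_neg hy]
        by_contra hne
        obtain ⟨b1, b2⟩ := supp_veh hM h.max v.2 hne
        have hyv : ∃ k : ℕ, orderOf (y * v * y⁻¹) = p ^ k := by
          obtain ⟨k, hk⟩ := orderOf_mem h.max.pair.1 v.2
          exact ⟨k, by rw [← hk]; simpa using orderOf_injective (MulAut.conj y).toMonoidHom (MulAut.conj y).injective (v : G)⟩
        have e4 : (y * (v : G) * y⁻¹)⁻¹ * (y * (v * s) * y⁻¹) = y * s * y⁻¹ := by group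
        have := ppart_unique h.max (w := y * v * y⁻¹) (orderOf_mem h.max.pair.1 v.2) hyv b1 b2 (by
          rw [e4]
          have := a1.eq
          show y * v * y⁻¹ * (y * s * y⁻¹) = y * s * y⁻¹ * (y * v * y⁻¹)
          calc y * v * y⁻¹ * (y * s * y⁻¹) = y * (v * s) * y⁻¹ := by group
            _ = y * (s * v) * y⁻¹ := by rw [this]
            _ = _ := by group) (by rw [e4, orderOf_conj_dvd]; exact a2)
        apply hy
        rw [mem_Cn_zpowers]
        show (v : G) * y = y * v
        calc (v : G) * y = (y * v * y⁻¹) * y := by rw [← this]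
          _ = _ := by group
    rw [e1, Finset.sum_congr rfl fun y _ => e2 y, Finset.sum_ite, Finset.sum_const_zero, add_zero, Finset.sum_const,
      nsmul_eq_mul]
    congr 2
    rw [Nat.card_eq_fintype_card, Fintype.card_subtype]
  have hcc : Nat.card (Subgroup.centralizer ({x} : Set G)) = Nat.card (Subgroup.centralizer ({(v : G) * s} : Set G)) := by
    rw [← hx, card_centralizer_conj]
  rw [h3, hcc]
  have h6 := eh_div hM h.max v.2 hNv hsC a2
  have h7 : ((ε (Subgroup.zpowers (v : G)) : ℂ) / ph p P c (Subgroup.zpowers (v : G)) 1) *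
      ((Nat.card (Cn (Subgroup.zpowers (v : G))) : ℂ) * (eh p P c (Subgroup.zpowers (v : G))).coeff s) /
      (Nat.card (Subgroup.centralizer ({(v : G) * s} : Set G)) : ℂ) =
      (ε (Subgroup.zpowers (v : G)) : ℂ) * ((Nat.card (Cn (Subgroup.zpowers (v : G))) : ℂ) *
        (eh p P c (Subgroup.zpowers (v : G))).coeff s /
      (ph p P c (Subgroup.zpowers (v : G)) 1 * Nat.card (Subgroup.centralizer ({(v : G) * s} : Set G)))) := by
    rw [mul_div_assoc, div_mul_eq_mul_div, div_eq_mul_inv, div_eq_mul_inv, div_eq_mul_inv, mul_inv]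
    ring
  rw [h7]
  exact loc_mul (loc_of_isIntegral (isIntegral_intCast _)) h6

/-- **Values at `p`-singular elements.** -/
theorem RhoSys.sing_value (hM : IsPModular p M) (h : FreeMax p B P c) (hr : RhoSys (M := M) p P c ε ρ) [Fintype P]
    {x : G} (hx : p ∣ orderOf x) :
    ∃ α : P → ℂ, (∀ w, IsIntegral ℤ (α w)) ∧ α 1 = 0 ∧ ∀ χ ∈ B, (χ : G → ℂ) x = ∑ w : P, α w * ρ χ w := by
  haveI : M.IsPrime := hMm.isPrime
  haveI := Fintype.ofFinite G
  obtain ⟨u, s, hxy, hc, ⟨k, hu⟩, hs, -, -⟩ := exists_ppart hp.out x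
  have hu1 : u ≠ 1 := by
    rintro rfl
    apply hs
    rw [← hxy, one_mul] at hx
    exact hx
  haveI := Fintype.ofFinite {b : Set (IrrCharacter (Subgroup.centralizer ({u} : Set G))) // IsPBlock M b}
  -- the contribution of one block
  have key : ∀ b : {b : Set (IrrCharacter (Subgroup.centralizer ({u} : Set G))) // IsPBlock M b},
      ∃ α : P → ℂ, (∀ w, IsIntegral ℤ (α w)) ∧ α 1 = 0 ∧ ∀ χ ∈ B,
        lin (χ : G → ℂ) (single (u * s) 1 * incH (Subgroup.centralizer ({u} : Set G)) (eB b.1)) =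
          ∑ w : P, α w * ρ χ w := by
    intro b
    by_cases hind : IsInducedBlock M (Subgroup.centralizer ({u} : Set G)) b.1 B
    · have hbe := (belt_iff h.max.blk ⟨k, hu⟩ hind.1).1 hind
      have hbx : BPair p (Subgroup.zpowers u) (bid M _ b.1) := ⟨isPGroup_zpowers ⟨k, hu⟩, by
        rw [SubsecNorm.centralizer_zpowers]
        exact hbe.blk⟩
      obtain ⟨x', hx'⟩ := h.max.max.conj_into hasBlocks (isBlk_bidG h.max.blk) h.max.pair h.max.br hbx hbe.br
      rw [map_zpowers] at hx'
      have hxP : x' * u * x'⁻¹ ∈ P := hx'.le (Subgroup.mem_zpowers _)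
      obtain ⟨v, hv⟩ : ∃ v : G, v = x' * u * x'⁻¹ := ⟨_, rfl⟩
      obtain ⟨y, hy⟩ : ∃ y : G, y = x'⁻¹ := ⟨_, rfl⟩
      have hxy' : x' = y⁻¹ := by rw [hy, inv_inv]
      have huy : y * v * y⁻¹ = u := by rw [hv, hy]; group
      rw [← hv] at hxP
      have hpr : BrauerMap.cj y (pr p P c (Subgroup.zpowers v)) = bid M _ b.1 := by
        have h1 := pr_eq h.max.pair hx'
        have h1' : pr p P c (Subgroup.zpowers v) = BrauerMap.cj x' (bid M _ b.1) := by
          rw [hv]; exact h1
        rw [h1', hy, BrauerMap.cj_inv_cj]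
      have hcid : cid (Subgroup.centralizer ({u} : Set G)) b.1 = BrauerMap.cj y (eh p P c (Subgroup.zpowers v)) := by
        have h1 := cid_blkOf_cj (y := y) hxP h.max
        rw [huy, hpr, blkOf_bid hind.1] at h1
        exact h1
      have hv1 : v ≠ 1 := by
        rintro rfl
        apply hu1
        rw [← huy]; group
      have hvP : (⟨v, hxP⟩ : P) ≠ 1 := fun h' => hv1 (congrArg Subtype.val h')
      have hfr := h.fr (zpowers_le_of hxP) (zpowers_ne_bot hv1)
      have hN := nil_of_fr hM h.max (zpowers_le_of hxP) hfr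
      obtain ⟨ξ, hξ⟩ := isPBlock_nonempty (isPBlock_bQ h.max.pair (zpowers_le_of hxP))
      have hsC : y⁻¹ * s * y ∈ Cn (Subgroup.zpowers v) := by
        rw [mem_Cn_zpowers]
        have := hc.eq
        rw [← huy] at this
        show v * (y⁻¹ * s * y) = (y⁻¹ * s * y) * v
        calc v * (y⁻¹ * s * y) = y⁻¹ * ((y * v * y⁻¹) * s) * y := by group
          _ = y⁻¹ * (s * (y * v * y⁻¹)) * y := by rw [this]
          _ = _ := by group
      have hsp : ¬ p ∣ orderOf (y⁻¹ * s * y) := by
        have := orderOf_conj_dvd (p := p) s y⁻¹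
        rw [inv_inv] at this
        rwa [this]
      refine ⟨fun w => if w = ⟨v, hxP⟩ then (ε (Subgroup.zpowers v) : ℂ) *
        ph p P c (Subgroup.zpowers v) (y⁻¹ * s * y) else 0, ?_, ?_, ?_⟩
      · intro w
        dsimp only
        split_ifs
        · refine IsIntegral.mul (isIntegral_intCast _) ?_
          have := ph_coe hM h.max (zpowers_le_of hxP) hN hξ ⟨_, hsC⟩ hsp
          rw [this]
          exact int_irr ξ _
        · exact isIntegral_zero
      · dsimp only
        rw [if_neg]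
        exact fun h' => hvP h'.symm
      · intro χ hχ
        rw [Finset.sum_eq_single (⟨v, hxP⟩ : P)]
        · dsimp only
          rw [if_pos rfl]
          have e1 : lin (χ : G → ℂ) (single (u * s) 1 * incH (Subgroup.centralizer ({u} : Set G)) (eB b.1)) =
              lin (χ : G → ℂ) (single (v * (y⁻¹ * s * y)) 1 * eh p P c (Subgroup.zpowers v)) := by
            have e2 : single (u * s) (1 : ℂ) * incH (Subgroup.centralizer ({u} : Set G)) (eB b.1) =
                BrauerMap.cj y (single (v * (y⁻¹ * s * y)) 1 * eh p P c (Subgroup.zpowers v)) := by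
              rw [map_mul, cj_single, ← hcid]
              congr 2
              rw [← huy]
              group
            rw [e2, lin_cj χ.2.isClassFunction]
          rw [e1]
          have e3 := bl_mul hM h.max (zpowers_le_of hxP) hN (f := (χ : G → ℂ)) (χ.2.isClassFunction.restrict _)
            (Subgroup.mem_zpowers v) hsC hsp
          rw [bl] at e3
          rw [e3, hr.val χ ⟨v, hxP⟩ hvP]
          have e4 := sgn_mul_self hr (Subgroup.zpowers v)
          linear_combination (-(Dh p P c (Subgroup.zpowers v) (χ : G → ℂ) v *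
            ph p P c (Subgroup.zpowers v) (y⁻¹ * s * y))) * e4
        · intro w _ hw
          dsimp only
          rw [if_neg hw, zero_mul]
        · intro h'
          exact absurd (Finset.mem_univ _) h'
    · refine ⟨0, fun w => isIntegral_zero, rfl, fun χ hχ => ?_⟩
      rw [lin_eq_zero_of_not_induced hM h.max.blk (Submodule.subset_span ⟨χ, hχ, rfl⟩) hu hs hc b.2 hind]
      simp
  choose α hα1 hα2 hα3 using key
  refine ⟨fun w => ∑ b, α b w, fun w => IsIntegral.sum _ fun b _ => hα1 b w, ?_, ?_⟩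
  · exact Finset.sum_eq_zero fun b _ => hα2 b
  · intro χ hχ
    have e1 : (χ : G → ℂ) x = lin (χ : G → ℂ) (single (u * s) 1 * 1) := by
      rw [mul_one, lin_single, one_mul, hxy]
    have e2 : (1 : GA G) = ∑ b : {b : Set (IrrCharacter (Subgroup.centralizer ({u} : Set G))) // IsPBlock M b},
        incH (Subgroup.centralizer ({u} : Set G)) (eB b.1) := by
      rw [← map_sum, sum_eB_blocks, map_one]
    rw [e1, e2, Finset.mul_sum, lin_sum, Finset.sum_congr rfl fun b _ => hα3 b χ hχ, Finset.sum_comm]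
    refine Finset.sum_congr rfl fun w _ => ?_
    rw [Finset.sum_mul]

end Cfsg.Agent.Lib.AbSec
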