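import Cfsg.Agent.Lib.AbPI2

/-!
# Perfect isometries from matching generalized decomposition numbers (helper77)
-/

set_option autoImplicit false
set_option linter.all false

namespace Cfsg.Agent.Lib.AbSec

open Cfsg Cfsg.Agent.Lib.BlockRing Cfsg.Agent.Lib.BlockGA Cfsg.Agent.Lib.BlockIdem
open Cfsg.Agent.Lib.BlkIdem Cfsg.Agent.Lib.BlockAlg Cfsg.Agent.Lib.PairAlg Cfsg.Agent.Lib.PairMax
open Cfsg.Agent.Lib.BrauerPairs Cfsg.Agent.Lib.NormalPBlk Cfsg.Agent.Lib.DefPairs
open Cfsg.Agent.Lib.BlkTransport Cfsg.Agent.Lib.BlkFus Cfsg.Agent.Lib.InducedPair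
open Cfsg.Agent.Lib.BlockCount Cfsg.Agent.Lib.BlockPair Cfsg.Agent.Lib.PairCount
open Cfsg.Agent.Lib.AbFusion Cfsg.Agent.Lib.AbCount Cfsg.Agent.Lib.BlockSecond
open Cfsg.Agent.Lib.CharBasic Cfsg.Agent.Lib.Contrib Cfsg.Agent.Lib.AbFT Cfsg.Agent.Lib.AbWeis
open MonoidAlgebra (single)
open scoped ComplexConjugate Classical

universe u v

/-- the kernel as a finite sum -/
theorem kernel_eq {G : Type u} [Group G] [Finite G] {H : Type v} [Group H] [Finite H] (B : Set (IrrCharacter H))
    (I : IrrCharacter H → IrrCharacter G) (δ : IrrCharacter H → ℤ) (x : G) (y : H) :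
    signedBijectionKernel B I δ x y =
      ∑ η : IrrCharacter H, if η ∈ B then (δ η : ℂ) * (I η : G → ℂ) x * (η : H → ℂ) y else 0 := by
  rw [signedBijectionKernel, finsum_mem_eq_finite_toFinset_sum _ (Set.toFinite B), ← Finset.sum_filter]
  refine Finset.sum_congr ?_ fun _ _ => rfl
  ext η
  simp

/-- transport of a sum along a bijection -/
theorem sum_bijOn {X : Type u} {Y : Type v} [Fintype X] [Fintype Y] {A : Set X} {B : Set Y} {I : X → Y}
    (hI : Set.BijOn I A B) (F : Y → ℂ) :
    ∑ x : X, (if x ∈ A then F (I x) else 0) = ∑ y : Y, if y ∈ B then F y else 0 := by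
  rw [← Finset.sum_filter, ← Finset.sum_filter]
  refine Finset.sum_bij (fun x _ => I x) ?_ ?_ ?_ (fun _ _ => rfl)
  · intro x hx
    exact Finset.mem_filter.2 ⟨Finset.mem_univ _, hI.mapsTo (Finset.mem_filter.1 hx).2⟩
  · intro x hx y hy hxy
    exact hI.injOn (Finset.mem_filter.1 hx).2 (Finset.mem_filter.1 hy).2 hxy
  · intro y hy
    obtain ⟨x, hx, rfl⟩ := hI.surjOn (Finset.mem_filter.1 hy).2
    exact ⟨x, Finset.mem_filter.2 ⟨Finset.mem_univ _, hx⟩, rfl⟩

variable {p : ℕ} [hp : Fact p.Prime] {M : Ideal AlgInt} [hMm : M.IsMaximal] [hchar : CharP (Kf M) p]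
  {G : Type u} [Group G] [Finite G] {B : Set (IrrCharacter G)} {P : Subgroup G} {c : MonoidAlgebra (Kf M) G}
  {ε : Subgroup G → ℤ} {ρ : IrrCharacter G → P → ℂ}
  {G' : Type v} [Group G'] [Finite G'] {B' : Set (IrrCharacter G')} {P' : Subgroup G'}
  {c' : MonoidAlgebra (Kf M) G'} {ε' : Subgroup G' → ℤ} {ρ' : IrrCharacter G' → P' → ℂ}

/-- one half of the verification -/
theorem pi_half (hM : IsPModular p M) (h : FreeMax p B P c) (hr : RhoSys (M := M) p P c ε ρ)
    (h' : FreeMax p B' P' c') (hr' : RhoSys (M := M) p P' c' ε' ρ') (φ : P' ≃* P)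
    {I : IrrCharacter G' → IrrCharacter G} {δ : IrrCharacter G' → ℤ} (hI : Set.BijOn I B' B)
    (hρ : ∀ η ∈ B', ∀ w : P', w ≠ 1 → (δ η : ℂ) * ρ' η w = ρ (I η) (φ w)) (x : G) {y : G'} (hy : p ∣ orderOf y) :
    MemLocalRing M (signedBijectionKernel B' I δ x y / (Nat.card (Subgroup.centralizer ({x} : Set G)) : ℂ)) ∧
      (¬ p ∣ orderOf x → signedBijectionKernel B' I δ x y = 0) := by
  haveI : M.IsPrime := hMm.isPrime
  haveI := Fintype.ofFinite G
  haveI := Fintype.ofFinite P'
  obtain ⟨α, hα1, hα2, hα3⟩ := hr'.sing_value hM h' hy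
  have key : signedBijectionKernel B' I δ x y =
      ∑ w : P', α w * ∑ χ : IrrCharacter G, ρ χ (φ w) * conj ((χ : G → ℂ) x⁻¹) := by
    rw [kernel_eq]
    have h1 : ∀ η : IrrCharacter G', (if η ∈ B' then (δ η : ℂ) * (I η : G → ℂ) x * (η : G' → ℂ) y else 0) =
        ∑ w : P', α w * (if η ∈ B' then ρ (I η) (φ w) * conj ((I η : G → ℂ) x⁻¹) else 0) := by
      intro η
      by_cases hη : η ∈ B'
      · simp only [if_pos hη]
        rw [hα3 η hη, Finset.mul_sum]
        refine Finset.sum_congr rfl fun w _ => ?_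
        rw [(I η).2.isCharacter.inv, Complex.conj_conj]
        by_cases hw : w = 1
        · rw [hw, hα2]; ring
        · rw [← hρ η hη w hw]; ring
      · simp only [if_neg hη, mul_zero, Finset.sum_const_zero]
    rw [Finset.sum_congr rfl fun η _ => h1 η, Finset.sum_comm]
    refine Finset.sum_congr rfl fun w _ => ?_
    rw [← Finset.mul_sum, sum_bijOn hI (fun χ => ρ χ (φ w) * conj ((χ : G → ℂ) x⁻¹))]
    by_cases hw : w = 1
    · rw [hw, hα2]; ring
    · congr 1
      refine Finset.sum_congr rfl fun χ _ => ?_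
      by_cases hχ : χ ∈ B
      · rw [if_pos hχ]
      · rw [if_neg hχ, hr.zero hM h hχ (v := φ w) (fun h0 => hw (by
          apply φ.injective; rw [h0, map_one])), zero_mul]
  constructor
  · rw [key, Finset.sum_div]
    refine loc_sum fun w _ => ?_
    by_cases hw : w = 1
    · rw [hw, hα2, zero_mul, zero_div]; exact loc_zero
    · rw [mul_div_assoc]
      have hw' : φ w ≠ 1 := fun h0 => hw (by apply φ.injective; rw [h0, map_one])
      have h2 := hr.col_div hM h hw' x⁻¹
      have h3 : Subgroup.centralizer ({x⁻¹} : Set G) = Subgroup.centralizer ({x} : Set G) := by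
        ext g
        rw [Subgroup.mem_centralizer_singleton_iff, Subgroup.mem_centralizer_singleton_iff]
        constructor
        · intro h4
          have : Commute g x⁻¹ := h4
          exact ((Commute.inv_right_iff).1 this).eq
        · intro h4
          have : Commute g x := h4
          exact this.inv_right.eq
      rw [h3] at h2
      exact loc_mul (loc_of_isIntegral (hα1 w)) h2
  · intro hx
    rw [key]
    refine Finset.sum_eq_zero fun w _ => ?_
    by_cases hw : w = 1
    · rw [hw, hα2, zero_mul]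
    · have hw' : φ w ≠ 1 := fun h0 => hw (by apply φ.injective; rw [h0, map_one])
      rw [hr.col_reg hM h hw' (x := x⁻¹) (by rwa [orderOf_inv]), mul_zero]

/-- **Perfect isometries.** -/
theorem perfect_of (hM : IsPModular p M) (h : FreeMax p B P c) (hr : RhoSys (M := M) p P c ε ρ)
    (h' : FreeMax p B' P' c') (hr' : RhoSys (M := M) p P' c' ε' ρ') (φ : P' ≃* P)
    {I : IrrCharacter G' → IrrCharacter G} {δ : IrrCharacter G' → ℤ} (hI : Set.BijOn I B' B)
    (hδ : ∀ η ∈ B', δ η = 1 ∨ δ η = -1)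
    (hρ : ∀ η ∈ B', ∀ w : P', w ≠ 1 → (δ η : ℂ) * ρ' η w = ρ (I η) (φ w)) :
    IsPerfectIsometry p M B' B I δ := by
  haveI : M.IsPrime := hMm.isPrime
  haveI := Fintype.ofFinite G
  haveI := Fintype.ofFinite G'
  refine ⟨hI, hδ, ?_⟩
  have hne : Nonempty (IrrCharacter G') := by
    obtain ⟨ξ, -⟩ := isPBlock_nonempty h'.max.blk
    exact ⟨ξ⟩
  obtain ⟨J, hJ⟩ : ∃ J : IrrCharacter G → IrrCharacter G', J = Function.invFunOn I B' := ⟨_, rfl⟩
  have hinv : Set.InvOn J I B' B := hJ ▸ hI.invOn_invFunOn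
  have hJb : Set.BijOn J B B' := Set.BijOn.symm hinv.symm hI
  have hker : ∀ (x : G) (y : G'), signedBijectionKernel B' I δ x y =
      signedBijectionKernel B J (fun χ => δ (J χ)) y x := by
    intro x y
    rw [kernel_eq, kernel_eq, ← sum_bijOn hI (fun χ => ((δ (J χ) : ℤ) : ℂ) * (J χ : G' → ℂ) y * (χ : G → ℂ) x)]
    refine Finset.sum_congr rfl fun η _ => ?_
    by_cases hη : η ∈ B'
    · rw [if_pos hη, if_pos hη, hinv.1 hη]
      ring
    · rw [if_neg hη, if_neg hη]
  have hρ2 : ∀ χ ∈ B, ∀ v : P, v ≠ 1 → ((δ (J χ) : ℤ) : ℂ) * ρ χ v = ρ' (J χ) (φ.symm v) := by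
    intro χ hχ v hv
    have hv' : φ.symm v ≠ 1 := fun h0 => hv (by apply φ.symm.injective; rw [h0, map_one])
    have h1 := hρ (J χ) (hJb.mapsTo hχ) (φ.symm v) hv'
    rw [hinv.2 hχ, MulEquiv.apply_symm_apply] at h1
    rw [← h1]
    rcases hδ (J χ) (hJb.mapsTo hχ) with h2 | h2 <;> rw [h2] <;> push_cast <;> ring
  have hA : ∀ (x : G) (y : G'), p ∣ orderOf y →
      MemLocalRing M (signedBijectionKernel B' I δ x y / (Nat.card (Subgroup.centralizer ({x} : Set G)) : ℂ)) ∧
      (¬ p ∣ orderOf x → signedBijectionKernel B' I δ x y = 0) :=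
    fun x y hy => pi_half hM h hr h' hr' φ hI hρ x hy
  have hB : ∀ (x : G) (y : G'), p ∣ orderOf x →
      MemLocalRing M (signedBijectionKernel B' I δ x y / (Nat.card (Subgroup.centralizer ({y} : Set G')) : ℂ)) ∧
      (¬ p ∣ orderOf y → signedBijectionKernel B' I δ x y = 0) := by
    intro x y hx
    rw [hker]
    exact pi_half hM h' hr' h hr φ.symm hJb hρ2 y hx
  intro x y
  refine ⟨?_, ?_, ?_⟩
  · by_cases hy : p ∣ orderOf y
    · exact (hA x y hy).1
    · have h1 : ∀ x : G, signedBijectionKernel B' I δ x y =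
          ∑ χ : IrrCharacter G, (if χ ∈ B then ((δ (J χ) : ℤ) : ℂ) * (J χ : G' → ℂ) y else 0) * (χ : G → ℂ) x := by
        intro x
        rw [hker, kernel_eq]
        refine Finset.sum_congr rfl fun χ _ => ?_
        split_ifs
        · rfl
        · rw [zero_mul]
      rw [h1]
      refine div_centralizer hM hp.out (fun χ => ?_) (fun g hg => ?_) x
      · split_ifs
        · exact loc_of_isIntegral (IsIntegral.mul (isIntegral_intCast _) (int_irr _ _))
        · exact loc_zero
      · rw [← h1]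
        exact (hB g y hg).2 hy
  · by_cases hx : p ∣ orderOf x
    · exact (hB x y hx).1
    · have h1 : ∀ y : G', signedBijectionKernel B' I δ x y =
          ∑ η : IrrCharacter G', (if η ∈ B' then ((δ η : ℤ) : ℂ) * (I η : G → ℂ) x else 0) * (η : G' → ℂ) y := by
        intro y
        rw [kernel_eq]
        refine Finset.sum_congr rfl fun χ _ => ?_
        split_ifs
        · rfl
        · rw [zero_mul]
      rw [h1]
      refine div_centralizer hM hp.out (fun χ => ?_) (fun g hg => ?_) y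
      · split_ifs
        · exact loc_of_isIntegral (IsIntegral.mul (isIntegral_intCast _) (int_irr _ _))
        · exact loc_zero
      · rw [← h1]
        exact (hA x g hg).2 hx
  · by_cases hx : p ∣ orderOf x
    · by_cases hy : p ∣ orderOf y
      · left
        exact ⟨fun h0 => absurd hx h0, fun h0 => absurd hy h0⟩
      · right
        exact (hB x y hx).2 hy
    · by_cases hy : p ∣ orderOf y
      · right
        exact (hA x y hy).2 hx
      · left
        exact ⟨fun _ => hy, fun _ => hx⟩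

end Cfsg.Agent.Lib.AbSec
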