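import Cfsg.Agent.Lib.AbPI3
import Cfsg.Agent.Lib.AbComb2

/-!
# The normal form of the generalized decomposition matrix, free inertial action (helper77)
-/

set_option autoImplicit false
set_option linter.all false

namespace Cfsg.Agent.Lib.AbSec

open Cfsg Cfsg.Agent.Lib.BlockRing Cfsg.Agent.Lib.BlockGA Cfsg.Agent.Lib.BlockIdem
open Cfsg.Agent.Lib.BlkIdem Cfsg.Agent.Lib.BlockAlg Cfsg.Agent.Lib.PairAlg Cfsg.Agent.Lib.PairMax
open Cfsg.Agent.Lib.BrauerPairs Cfsg.Agent.Lib.NormalPBlk Cfsg.Agent.Lib.DefPairs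
open Cfsg.Agent.Lib.BlkTransport Cfsg.Agent.Lib.BlkFus Cfsg.Agent.Lib.InducedPair
open Cfsg.Agent.Lib.BlockCount Cfsg.Agent.Lib.BlockPair Cfsg.Agent.Lib.PairCount
open Cfsg.Agent.Lib.AbFusion Cfsg.Agent.Lib.AbCount Cfsg.Agent.Lib.BlockSecond
open Cfsg.Agent.Lib.CharBasic Cfsg.Agent.Lib.Contrib Cfsg.Agent.Lib.AbFT Cfsg.Agent.Lib.AbWeis
open MonoidAlgebra (single)
open scoped ComplexConjugate Classical

universe u v

variable {p : ℕ} [hp : Fact p.Prime] {M : Ideal AlgInt} [hMm : M.IsMaximal] [hchar : CharP (Kf M) p]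
  {G : Type u} [Group G] [Finite G] {B : Set (IrrCharacter G)} {P : Subgroup G} {c : MonoidAlgebra (Kf M) G}
  {ε : Subgroup G → ℤ} {ρ : IrrCharacter G → P → ℂ}

/-- **The normal form.** -/
theorem exists_kappa (hM : IsPModular p M) (h : FreeMax p B P c) (hr : RhoSys (M := M) p P c ε ρ)
    (hk : ei P c * Nat.card B = ei P c * ei P c + (Nat.card P - 1)) :
    ∃ (s : ℤ) (κ : (P →* ℂˣ) → IrrCharacter G), (s = 1 ∨ s = -1) ∧ (∀ θ, θ ≠ 1 → κ θ ∈ B) ∧
      (∀ θ θ', θ ≠ 1 → θ' ≠ 1 → (κ θ = κ θ' ↔ rel P c θ θ')) ∧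
      (∀ θ θ', θ ≠ 1 → θ' ≠ 1 → yc ρ θ (κ θ') = s * iv (rel P c θ θ')) ∧
      (∀ χ ∈ B, (∀ θ, θ ≠ 1 → χ ≠ κ θ) → ∃ a : ℤ, (a = 1 ∨ a = -1) ∧ ∀ θ, θ ≠ 1 → yc ρ θ χ = a) := by
  haveI := Fintype.ofFinite P
  haveI := Fintype.ofFinite G
  haveI := LinChar.finite_hom (P_comm h.max)
  haveI := Fintype.ofFinite (P →* ℂˣ)
  obtain ⟨S, hS⟩ : ∃ S : Finset (P →* ℂˣ), S = Finset.univ.filter (fun θ => θ ≠ 1) := ⟨_, rfl⟩
  have hSm : ∀ θ, θ ∈ S ↔ θ ≠ 1 := fun θ => by rw [hS]; simp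
  obtain ⟨F, hF⟩ : ∃ F : Finset (IrrCharacter G → ℤ), F = S.image (yz ρ) := ⟨_, rfl⟩
  have hScard : (S.card : ℂ) = (Nat.card P : ℂ) - 1 := by
    have : S = Finset.univ.erase 1 := by rw [hS]; ext v; simp
    rw [this, Finset.card_erase_of_mem (Finset.mem_univ _), Finset.card_univ, ← Nat.card_eq_fintype_card,
      LinChar.card_hom (P_comm h.max), Nat.cast_sub Nat.card_pos, Nat.cast_one]
  have hfib : ∀ v ∈ F, ((S.filter (fun θ => yz ρ θ = v)).card : ℂ) = ei P c := by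
    intro v hv
    rw [hF, Finset.mem_image] at hv
    obtain ⟨θ0, hθ0, rfl⟩ := hv
    rw [hSm] at hθ0
    rw [← card_rel h hθ0, Finset.cast_card, Finset.sum_filter, hS, Finset.sum_filter]
    refine Finset.sum_congr rfl fun θ _ => ?_
    by_cases hθ : θ = 1
    · rw [if_neg (fun h' => h' hθ), iv_neg]
      intro h'
      exact rel_ne_one h' hθ0 hθ
    · rw [if_pos hθ]
      by_cases hr' : rel P c θ0 θ
      · rw [if_pos ((yz_eq_iff hM h hr hθ0 hθ).2 hr').symm, iv_pos hr']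
      · rw [if_neg (fun h' => hr' ((yz_eq_iff hM h hr hθ0 hθ).1 h'.symm)), iv_neg hr']
  have hcount : (ei P c : ℂ) * F.card = (Nat.card P : ℂ) - 1 := by
    rw [← hScard, Finset.card_eq_sum_card_fiberwise (f := yz ρ) (t := F)
      (fun θ hθ => by rw [hF]; exact Finset.mem_image_of_mem _ hθ)]
    push_cast
    rw [Finset.sum_congr rfl hfib, Finset.sum_const, nsmul_eq_mul, mul_comm]
  have hP2 : 2 ≤ Nat.card P := by
    by_contra hcon
    exact h.ne (Subgroup.eq_bot_of_card_le P (by omega))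
  have hcount' : ei P c * F.card = Nat.card P - 1 := by
    have : ((ei P c * F.card : ℕ) : ℂ) = ((Nat.card P - 1 : ℕ) : ℂ) := by
      push_cast [Nat.cast_sub (show 1 ≤ Nat.card P by omega)]
      exact hcount
    exact_mod_cast this
  have hm1 : 1 ≤ F.card := by
    rcases Nat.eq_zero_or_pos F.card with h0 | h0
    · rw [h0, mul_zero] at hcount'
      omega
    · exact h0
  have hkl : Nat.card B = blockRank p B + F.card := by
    have h1 := k_sub_l hM h hr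
    rw [← hcount] at h1
    have he0 : (ei P c : ℂ) ≠ 0 := Nat.cast_ne_zero.2 ei_ne_zero
    have h2 : (Nat.card B : ℂ) = blockRank p B + F.card := by
      apply mul_left_cancel₀ he0
      rw [h1]; ring
    exact_mod_cast h2
  -- the combinatorial data
  have g1 : ∀ v ∈ F, ∑ x, v x * v x = (ei P c : ℤ) + 1 := by
    intro v hv
    rw [hF, Finset.mem_image] at hv
    obtain ⟨θ, hθ, rfl⟩ := hv
    rw [hSm] at hθ
    have := yz_gram hM h hr hθ hθ
    rw [iv_pos (rel_refl θ)] at this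
    exact_mod_cast this
  have g2 : ∀ v ∈ F, ∀ w ∈ F, v ≠ w → ∑ x, v x * w x = (ei P c : ℤ) := by
    intro v hv w hw hvw
    rw [hF, Finset.mem_image] at hv hw
    obtain ⟨θ, hθ, rfl⟩ := hv
    obtain ⟨θ', hθ', rfl⟩ := hw
    rw [hSm] at hθ hθ'
    have := yz_gram hM h hr hθ hθ'
    rw [iv_neg (fun h' => hvw ((yz_eq_iff hM h hr hθ hθ').2 h')), add_zero] at this
    exact_mod_cast this
  have hdegex : ∀ χ : IrrCharacter G, ∃ n : ℤ, 0 < n ∧ (χ : G → ℂ) 1 = n := by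
    intro χ
    obtain ⟨n, hn0, hn⟩ := χ.2.exists_degree
    exact ⟨n, by exact_mod_cast hn0, by rw [hn]; norm_cast⟩
  choose deg hdeg hdegv using hdegex
  have g3 : ∀ v ∈ F, ∑ x, deg x * v x = 0 := by
    intro v hv
    rw [hF, Finset.mem_image] at hv
    obtain ⟨θ, hθ, rfl⟩ := hv
    have h1 := yc_reg hM h hr θ (x := 1) not_dvd_one
    have h2 : ((∑ x, deg x * yz ρ θ x : ℤ) : ℂ) = 0 := by
      rw [← h1]
      push_cast
      refine Finset.sum_congr rfl fun χ _ => ?_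
      rw [yz_spec hr, hdegv, map_intCast]
      ring
    exact_mod_cast h2
  have hsupp : (Finset.univ.filter fun x : IrrCharacter G => ∃ v ∈ F, v x ≠ 0).card = Nat.card B := by
    rw [Nat.card_coe_set_eq, Set.ncard_eq_toFinset_card B (Set.toFinite B)]
    congr 1
    ext χ
    simp only [Finset.mem_filter, Finset.mem_univ, true_and, Set.Finite.mem_toFinset]
    constructor
    · rintro ⟨v, hv, hne⟩
      rw [hF, Finset.mem_image] at hv
      obtain ⟨θ, hθ, rfl⟩ := hv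
      by_contra hχ
      apply hne
      have h1 := yc_zero hM h hr θ hχ
      rw [← yz_spec hr] at h1
      exact_mod_cast h1
    · intro hχ
      obtain ⟨θ, hθ, hne⟩ := exists_yc_ne hM h hr hχ
      refine ⟨yz ρ θ, by rw [hF]; exact Finset.mem_image_of_mem _ ((hSm θ).2 hθ), fun h' => hne ?_⟩
      rw [← yz_spec hr, h', Int.cast_zero]
  have he1 : 1 ≤ ei P c := Nat.pos_of_ne_zero ei_ne_zero
  have hcard : (Finset.univ.filter fun x : IrrCharacter G => ∃ v ∈ F, v x ≠ 0).card = ei P c + F.card := by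
    rw [hsupp]
    rw [← hcount', ← Nat.mul_add] at hk
    exact Nat.eq_of_mul_eq_mul_left he1 hk
  obtain ⟨s, κ, hs, hinj, hd1, hd2, hrest⟩ := AbComb.normal_form F (ei P c) he1 hm1 g1 g2 deg hdeg g3 hcard
  have hF' : ∀ θ : P →* ℂˣ, θ ≠ 1 → yz ρ θ ∈ F := fun θ hθ => by
    rw [hF]; exact Finset.mem_image_of_mem _ ((hSm θ).2 hθ)
  refine ⟨s, fun θ => κ (yz ρ θ), hs, ?_, ?_, ?_, ?_⟩
  · intro θ hθ
    by_contra hcon
    have h1 := yc_zero hM h hr θ hcon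
    rw [← yz_spec hr, hd1 _ (hF' θ hθ)] at h1
    rcases hs with rfl | rfl <;> norm_num at h1
  · intro θ θ' hθ hθ'
    rw [← yz_eq_iff hM h hr hθ hθ']
    exact ⟨fun h' => hinj (hF' θ hθ) (hF' θ' hθ') h', fun h' => by dsimp only; rw [h']⟩
  · intro θ θ' hθ hθ'
    rw [← yz_spec hr]
    by_cases hrel : rel P c θ θ'
    · rw [iv_pos hrel, mul_one, (yz_eq_iff hM h hr hθ hθ').2 hrel, hd1 _ (hF' θ' hθ')]
    · rw [iv_neg hrel, mul_zero, hd2 _ (hF' θ hθ) _ (hF' θ' hθ') (fun h' => hrel ((yz_eq_iff hM h hr hθ hθ').1 h')),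
        Int.cast_zero]
  · intro χ hχ hne
    obtain ⟨θ0, hθ0, hy0⟩ := exists_yc_ne hM h hr hχ
    obtain ⟨a, ha, ha2⟩ := hrest χ (by
      intro w hw
      rw [hF, Finset.mem_image] at hw
      obtain ⟨θ, hθ, rfl⟩ := hw
      exact hne θ ((hSm θ).1 hθ)) ⟨yz ρ θ0, hF' θ0 hθ0, fun h' => hy0 (by rw [← yz_spec hr, h', Int.cast_zero])⟩
    refine ⟨a, ha, fun θ hθ => ?_⟩
    rw [← yz_spec hr, ha2 _ (hF' θ hθ)]

/-- the values through the Fourier coefficients -/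
theorem rho_eq_sum (h : AbMax p B P c) [Fintype (P →* ℂˣ)] (χ : IrrCharacter G) {v : P} (hv : v ≠ 1) :
    ρ χ v = -∑ θ : P →* ℂˣ, yc ρ θ χ * (θ v : ℂ) := by
  haveI := Fintype.ofFinite P
  rw [inversion (P_comm h) (ρ χ) v]
  have h1 : ∀ θ : P →* ℂˣ, yc ρ θ χ * (θ v : ℂ) = ft (ρ χ) 1 * (θ v : ℂ) - ft (ρ χ) θ * (θ v : ℂ) := by
    intro θ
    rw [yc]; ring
  rw [Finset.sum_congr rfl fun θ _ => h1 θ, Finset.sum_sub_distrib, ← Finset.mul_sum, LinChar.sum_chars (P_comm h),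
    if_neg hv]
  ring

end Cfsg.Agent.Lib.AbSec
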