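import Cfsg.Agent.Lib.AbPI4

/-!
# Existence of perfect isometries for free inertial action (helper77)
-/

set_option autoImplicit false
set_option linter.all false

namespace Cfsg.Agent.Lib.AbSec

open Cfsg Cfsg.Agent.Lib.BlockRing Cfsg.Agent.Lib.BlockGA Cfsg.Agent.Lib.BlockIdem
open Cfsg.Agent.Lib.BlkIdem Cfsg.Agent.Lib.BlockAlg Cfsg.Agent.Lib.PairAlg Cfsg.Agent.Lib.PairMax
open Cfsg.Agent.Lib.BrauerPairs Cfsg.Agent.Lib.NormalPBlk Cfsg.Agent.Lib.DefPairs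
open Cfsg.Agent.Lib.BlkTransport Cfsg.Agent.Lib.BlkFus Cfsg.Agent.Lib.InducedPair
open Cfsg.Agent.Lib.BlockCount Cfsg.Agent.Lib.BlockPair Cfsg.Agent.Lib.PairCount
open Cfsg.Agent.Lib.AbFusion Cfsg.Agent.Lib.AbCount Cfsg.Agent.Lib.BlockSecond
open Cfsg.Agent.Lib.CharBasic Cfsg.Agent.Lib.Contrib Cfsg.Agent.Lib.AbFT Cfsg.Agent.Lib.AbWeis
open MonoidAlgebra (single)
open scoped ComplexConjugate Classical

universe u v

variable {p : ℕ} [hp : Fact p.Prime] {M : Ideal AlgInt} [hMm : M.IsMaximal] [hchar : CharP (Kf M) p]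
  {G : Type u} [Group G] [Finite G] {B : Set (IrrCharacter G)} {P : Subgroup G} {c : MonoidAlgebra (Kf M) G}
  {ε : Subgroup G → ℤ} {ρ : IrrCharacter G → P → ℂ}
  {G' : Type v} [Group G'] [Finite G'] {B' : Set (IrrCharacter G')} {P' : Subgroup G'}
  {c' : MonoidAlgebra (Kf M) G'} {ε' : Subgroup G' → ℤ} {ρ' : IrrCharacter G' → P' → ℂ}

/-- the isomorphism matches the inertial actions -/
def Match (φ : P' ≃* P) (c : MonoidAlgebra (Kf M) G) (c' : MonoidAlgebra (Kf M) G') : Prop :=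
  (∀ t : TT P c, ∃ t' : TT P' c', ∀ w : P', φ (au t' w) = au t (φ w)) ∧
  (∀ t' : TT P' c', ∃ t : TT P c, ∀ w : P', φ (au t' w) = au t (φ w))

theorem Match.rel_iff {φ : P' ≃* P} (hφ : Match φ c c') (θ θ' : P →* ℂˣ) :
    rel P' c' (θ.comp φ.toMonoidHom) (θ'.comp φ.toMonoidHom) ↔ rel P c θ θ' := by
  constructor
  · rintro ⟨t', ht'⟩
    obtain ⟨t, ht⟩ := hφ.2 t'
    refine ⟨t, ?_⟩
    ext v
    have h1 := DFunLike.congr_fun ht' (φ.symm v)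
    simp only [MonoidHom.comp_apply, MulEquiv.toMonoidHom_eq_coe, MonoidHom.coe_coe, MulEquiv.apply_symm_apply] at h1 ⊢
    rw [ht, MulEquiv.apply_symm_apply] at h1
    rw [h1]
  · rintro ⟨t, ht⟩
    obtain ⟨t', ht'⟩ := hφ.1 t
    refine ⟨t', ?_⟩
    ext w
    simp only [MonoidHom.comp_apply, MulEquiv.toMonoidHom_eq_coe, MonoidHom.coe_coe]
    rw [ht', ← ht]
    rfl

theorem comp_ne_one (φ : P' ≃* P) {θ : P →* ℂˣ} (hθ : θ ≠ 1) : θ.comp φ.toMonoidHom ≠ 1 := by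
  intro h
  apply hθ
  ext v
  have h1 := DFunLike.congr_fun h (φ.symm v)
  simp only [MonoidHom.comp_apply, MulEquiv.toMonoidHom_eq_coe, MonoidHom.coe_coe, MulEquiv.apply_symm_apply] at h1
  rw [h1]
  rfl

theorem exists_comp (φ : P' ≃* P) {θ' : P' →* ℂˣ} (hθ' : θ' ≠ 1) :
    ∃ θ : P →* ℂˣ, θ ≠ 1 ∧ θ.comp φ.toMonoidHom = θ' := by
  refine ⟨θ'.comp φ.symm.toMonoidHom, ?_, ?_⟩
  · intro h
    apply hθ'
    ext w
    have h1 := DFunLike.congr_fun h (φ w)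
    simp only [MonoidHom.comp_apply, MulEquiv.toMonoidHom_eq_coe, MonoidHom.coe_coe, MulEquiv.symm_apply_apply] at h1
    rw [h1]
    rfl
  · ext w
    simp

/-- **Existence of perfect isometries.** -/
theorem exists_perfect (hM : IsPModular p M) (h : FreeMax p B P c)
    (hk : ei P c * Nat.card B = ei P c * ei P c + (Nat.card P - 1))
    (h' : FreeMax p B' P' c') (hr' : RhoSys (M := M) p P' c' ε' ρ')
    (hk' : ei P' c' * Nat.card B' = ei P' c' * ei P' c' + (Nat.card P' - 1))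
    (hBB : Nat.card B' = Nat.card B) (φ : P' ≃* P) (hφ : Match φ c c') :
    ∃ (I : IrrCharacter G' → IrrCharacter G) (δ : IrrCharacter G' → ℤ), IsPerfectIsometry p M B' B I δ ∧
      ∃ s : ℤ, ∀ η ∈ B', (∀ a : ℤ, a = 1 ∨ a = -1 → ∃ θ : P' →* ℂˣ, θ ≠ 1 ∧ yc ρ' θ η ≠ a) → δ η = s := by
  obtain ⟨ε, ρ, hr⟩ := exists_rhoSys hM h
  obtain ⟨s, κ, hs, hκB, hκ, hκv, hκr⟩ := exists_kappa hM h hr hk
  obtain ⟨s', κ', hs', hκB', hκ', hκv', hκr'⟩ := exists_kappa hM h' hr' hk'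
  obtain ⟨A, hA⟩ : ∃ A : Set (IrrCharacter G), A = {χ | ∃ θ : P →* ℂˣ, θ ≠ 1 ∧ χ = κ θ} := ⟨_, rfl⟩
  obtain ⟨A', hA'⟩ : ∃ A' : Set (IrrCharacter G'), A' = {η | ∃ θ : P →* ℂˣ, θ ≠ 1 ∧ η = κ' (θ.comp φ.toMonoidHom)} :=
    ⟨_, rfl⟩
  have hAB : A ⊆ B := by
    rw [hA]
    rintro _ ⟨θ, hθ, rfl⟩
    exact hκB θ hθ
  have hAB' : A' ⊆ B' := by
    rw [hA']
    rintro _ ⟨θ, hθ, rfl⟩
    exact hκB' _ (comp_ne_one φ hθ)
  have hAmem : ∀ χ, χ ∈ A ↔ ∃ θ : P →* ℂˣ, θ ≠ 1 ∧ χ = κ θ := fun χ => by rw [hA]; rfl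
  have hAmem' : ∀ η, η ∈ A' ↔ ∃ θ : P →* ℂˣ, θ ≠ 1 ∧ η = κ' (θ.comp φ.toMonoidHom) := fun η => by rw [hA']; rfl
  -- the exceptional part of the bijection
  have hI1 : ∀ η : IrrCharacter G', ∃ χ : IrrCharacter G, η ∈ A' →
      ∃ θ : P →* ℂˣ, θ ≠ 1 ∧ η = κ' (θ.comp φ.toMonoidHom) ∧ χ = κ θ := by
    intro η
    by_cases hη : η ∈ A'
    · obtain ⟨θ, hθ, rfl⟩ := (hAmem' η).1 hη
      exact ⟨κ θ, fun _ => ⟨θ, hθ, rfl, rfl⟩⟩
    · obtain ⟨χ, -⟩ := isPBlock_nonempty h.max.blk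
      exact ⟨χ, fun h0 => absurd h0 hη⟩
  choose I1 hI1 using hI1
  have hI1b : Set.BijOn I1 A' A := by
    refine ⟨?_, ?_, ?_⟩
    · intro η hη
      obtain ⟨θ, hθ, -, h1⟩ := hI1 η hη
      exact (hAmem _).2 ⟨θ, hθ, h1⟩
    · intro η hη η2 hη2 heq
      obtain ⟨θ, hθ, h1, h2⟩ := hI1 η hη
      obtain ⟨θ2, hθ2, h3, h4⟩ := hI1 η2 hη2
      rw [h2, h4, hκ θ θ2 hθ hθ2] at heq
      rw [h1, h3, hκ' _ _ (comp_ne_one φ hθ) (comp_ne_one φ hθ2), hφ.rel_iff]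
      exact heq
    · intro χ hχ
      obtain ⟨θ, hθ, rfl⟩ := (hAmem χ).1 hχ
      have hη : κ' (θ.comp φ.toMonoidHom) ∈ A' := (hAmem' _).2 ⟨θ, hθ, rfl⟩
      refine ⟨_, hη, ?_⟩
      obtain ⟨θ2, hθ2, h3, h4⟩ := hI1 _ hη
      rw [hκ' _ _ (comp_ne_one φ hθ) (comp_ne_one φ hθ2), hφ.rel_iff] at h3
      rw [h4, hκ _ _ hθ2 hθ]
      rw [← hκ θ θ2 hθ hθ2] at h3
      exact (hκ _ _ hθ2 hθ).1 h3.symm
  -- the other part
  have hcardA : A'.ncard = A.ncard := by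
    rw [← hI1b.image_eq, Set.ncard_image_of_injOn hI1b.injOn]
  have hcardC : (B' \ A').ncard = (B \ A).ncard := by
    have h1 := Set.ncard_diff_add_ncard_of_subset hAB (Set.toFinite B)
    have h2 := Set.ncard_diff_add_ncard_of_subset hAB' (Set.toFinite B')
    rw [Nat.card_coe_set_eq, Nat.card_coe_set_eq] at hBB
    omega
  obtain ⟨I2, hI2b⟩ : ∃ I2 : IrrCharacter G' → IrrCharacter G, Set.BijOn I2 (B' \ A') (B \ A) := by
    have h1 : Nat.card (B' \ A' : Set (IrrCharacter G')) = Nat.card (B \ A : Set (IrrCharacter G)) := by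
      rw [Nat.card_coe_set_eq, Nat.card_coe_set_eq]; exact hcardC
    obtain ⟨e⟩ : Nonempty ((B' \ A' : Set (IrrCharacter G')) ≃ (B \ A : Set (IrrCharacter G))) := by
      haveI := Fintype.ofFinite (B' \ A' : Set (IrrCharacter G'))
      haveI := Fintype.ofFinite (B \ A : Set (IrrCharacter G))
      rw [Nat.card_eq_fintype_card, Nat.card_eq_fintype_card] at h1
      exact ⟨Fintype.equivOfCardEq h1⟩
    obtain ⟨χ0, -⟩ := isPBlock_nonempty h.max.blk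
    refine ⟨fun η => if hη : η ∈ B' \ A' then e ⟨η, hη⟩ else χ0, ?_, ?_, ?_⟩
    · intro η hη
      dsimp only
      rw [dif_pos hη]
      exact (e ⟨η, hη⟩).2
    · intro η hη η2 hη2 heq
      dsimp only at heq
      rw [dif_pos hη, dif_pos hη2] at heq
      have := e.injective (Subtype.ext heq)
      exact congrArg Subtype.val this
    · intro χ hχ
      refine ⟨(e.symm ⟨χ, hχ⟩ : IrrCharacter G'), (e.symm ⟨χ, hχ⟩).2, ?_⟩
      dsimp only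
      rw [dif_pos (e.symm ⟨χ, hχ⟩).2]
      simp
  -- signs
  have hsg : ∀ χ ∈ B \ A, ∃ a : ℤ, (a = 1 ∨ a = -1) ∧ ∀ θ, θ ≠ 1 → yc ρ θ χ = a := by
    rintro χ ⟨hχ, hχA⟩
    exact hκr χ hχ (fun θ hθ h0 => hχA ((hAmem χ).2 ⟨θ, hθ, h0⟩))
  have hsg' : ∀ η ∈ B' \ A', ∃ a : ℤ, (a = 1 ∨ a = -1) ∧ ∀ θ, θ ≠ 1 → yc ρ' θ η = a := by
    rintro η ⟨hη, hηA⟩
    refine hκr' η hη (fun θ' hθ' h0 => hηA ?_)
    obtain ⟨θ, hθ, rfl⟩ := exists_comp φ hθ'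
    exact (hAmem' η).2 ⟨θ, hθ, h0⟩
  have hδ : ∀ η : IrrCharacter G', ∃ d : ℤ, (η ∈ A' → d = s * s') ∧ (η ∈ B' \ A' → (d = 1 ∨ d = -1) ∧
      ∀ θ : P →* ℂˣ, θ ≠ 1 → (d : ℂ) * yc ρ' (θ.comp φ.toMonoidHom) η = yc ρ θ (I2 η)) := by
    intro η
    by_cases hη : η ∈ A'
    · exact ⟨s * s', fun _ => rfl, fun h0 => absurd hη h0.2⟩
    · by_cases hηB : η ∈ B' \ A'
      · obtain ⟨a', ha', ha2'⟩ := hsg' η hηB
        obtain ⟨a, ha, ha2⟩ := hsg (I2 η) (hI2b.mapsTo hηB)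
        refine ⟨a * a', fun h0 => absurd h0 hη, fun _ => ⟨?_, fun θ hθ => ?_⟩⟩
        · rcases ha with rfl | rfl <;> rcases ha' with rfl | rfl <;> norm_num
        · rw [ha2 θ hθ, ha2' _ (comp_ne_one φ hθ)]
          rcases ha' with rfl | rfl <;> push_cast <;> ring
      · exact ⟨0, fun h0 => absurd h0 hη, fun h0 => absurd h0 hηB⟩
  choose δ hδ1 hδ2 using hδ
  obtain ⟨I, hI⟩ : ∃ I : IrrCharacter G' → IrrCharacter G, I = fun η => if η ∈ A' then I1 η else I2 η := ⟨_, rfl⟩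
  have hIA : ∀ η ∈ A', I η = I1 η := fun η hη => by rw [hI]; exact if_pos hη
  have hIC : ∀ η ∈ B' \ A', I η = I2 η := fun η hη => by rw [hI]; exact if_neg hη.2
  have hIb : Set.BijOn I B' B := by
    have h1 : Set.BijOn I A' A := hI1b.congr (fun η hη => (hIA η hη).symm)
    have h2 : Set.BijOn I (B' \ A') (B \ A) := hI2b.congr (fun η hη => (hIC η hη).symm)
    have h3 := h1.union h2 (by
      intro x hx y hy hxy
      rcases hx with hx | hx <;> rcases hy with hy | hy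
      · exact h1.injOn hx hy hxy
      · exact absurd (hxy ▸ h1.mapsTo hx) (h2.mapsTo hy).2
      · exact absurd (hxy.symm ▸ h1.mapsTo hy) (h2.mapsTo hx).2
      · exact h2.injOn hx hy hxy)
    rwa [Set.union_diff_cancel hAB', Set.union_diff_cancel hAB] at h3
  have hδB : ∀ η ∈ B', δ η = 1 ∨ δ η = -1 := by
    intro η hη
    by_cases hηA : η ∈ A'
    · rw [hδ1 η hηA]
      rcases hs with rfl | rfl <;> rcases hs' with rfl | rfl <;> norm_num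
    · exact (hδ2 η ⟨hη, hηA⟩).1
  have hy : ∀ η ∈ B', ∀ θ : P →* ℂˣ, θ ≠ 1 → (δ η : ℂ) * yc ρ' (θ.comp φ.toMonoidHom) η = yc ρ θ (I η) := by
    intro η hη θ hθ
    by_cases hηA : η ∈ A'
    · obtain ⟨θ2, hθ2, h1, h2⟩ := hI1 η hηA
      rw [hIA η hηA, h2, h1, hκv θ θ2 hθ hθ2, hκv' _ _ (comp_ne_one φ hθ) (comp_ne_one φ hθ2), ← h1, hδ1 η hηA,
        iv_congr (hφ.rel_iff θ θ2)]
      rcases hs' with rfl | rfl <;> push_cast <;> ring
    · rw [hIC η ⟨hη, hηA⟩]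
      exact (hδ2 η ⟨hη, hηA⟩).2 θ hθ
  haveI := LinChar.finite_hom (P_comm h.max)
  haveI := Fintype.ofFinite (P →* ℂˣ)
  haveI := LinChar.finite_hom (P_comm h'.max)
  haveI := Fintype.ofFinite (P' →* ℂˣ)
  refine ⟨I, δ, perfect_of hM h hr h' hr' φ hIb hδB ?_, s * s', ?_⟩
  · intro η hη w hw
    have hw' : φ w ≠ 1 := fun h0 => hw (by apply φ.injective; rw [h0, map_one])
    rw [rho_eq_sum (ρ := ρ') h'.max η hw, rho_eq_sum (ρ := ρ) h.max (I η) hw', mul_neg, Finset.mul_sum]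
    congr 1
    symm
    refine Fintype.sum_equiv (⟨fun θ => θ.comp φ.toMonoidHom, fun θ => θ.comp φ.symm.toMonoidHom, ?_, ?_⟩ :
      (P →* ℂˣ) ≃ (P' →* ℂˣ)) _ _ ?_
    · intro θ; ext v; simp
    · intro θ; ext v; simp
    · intro θ
      show yc ρ θ (I η) * (θ (φ w) : ℂ) = (δ η : ℂ) * (yc ρ' (θ.comp φ.toMonoidHom) η * (θ (φ w) : ℂ))
      by_cases hθ : θ = 1
      · subst hθ
        have h1 : ((1 : P →* ℂˣ).comp φ.toMonoidHom) = 1 := rfl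
        rw [h1, yc, yc, sub_self, sub_self]
        ring
      · rw [← hy η hη θ hθ]
        ring
  · intro η hη hex
    by_cases hηA : η ∈ A'
    · exact hδ1 η hηA
    · exfalso
      obtain ⟨a, ha, ha2⟩ := hsg' η ⟨hη, hηA⟩
      obtain ⟨θ, hθ, hne⟩ := hex a ha
      exact hne (ha2 θ hθ)

end Cfsg.Agent.Lib.AbSec
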