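import Cfsg.Agent.Lib.H76Alg3

/-!
# Ranks of idempotents in a finite-dimensional algebra (helper77)
-/

set_option autoImplicit false
set_option linter.all false

namespace Cfsg.Agent.Lib.AbPim

open Cfsg.Agent.Lib.H76BDim (PW mem_PW mul_mem_PW PW_eq)
open Cfsg.Agent.Lib.H76Alg

universe u v

section mat

variable {k : Type v} [Field k] {f : ℕ} [NeZero f]

theorem single_idem : (Matrix.single 0 0 1 : Matrix (Fin f) (Fin f) k) * Matrix.single 0 0 1 =
    Matrix.single 0 0 1 := by
  rw [Matrix.single_mul_single_same, mul_one]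

theorem pi_single_idem {n : ℕ} {d : Fin n → ℕ} [∀ i, NeZero (d i)] (j : Fin n) :
    (Pi.single j (Matrix.single 0 0 1) : ∀ i, Matrix (Fin (d i)) (Fin (d i)) k) *
          Pi.single j (Matrix.single 0 0 1) = Pi.single j (Matrix.single 0 0 1) := by
  rw [← Pi.single_mul, single_idem]

theorem finrank_PW_one : Module.finrank k (PW k (Matrix.single 0 0 1 : Matrix (Fin f) (Fin f) k) 1) = f := by
  let F : (Fin f → k) ≃ₗ[k] PW k (Matrix.single 0 0 1 : Matrix (Fin f) (Fin f) k) 1 :=
    { toFun := fun v => ⟨∑ j, v j • Matrix.single 0 j 1, by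
        rw [Finset.mul_sum]
        refine Finset.sum_congr rfl fun j _ => ?_
        rw [mul_smul_comm, Matrix.single_mul_single_same, mul_one], mul_one _⟩
      map_add' := fun v w => Subtype.ext (by
        show ∑ j, (v j + w j) • _ = ∑ j, v j • _ + ∑ j, w j • _
        rw [← Finset.sum_add_distrib]
        exact Finset.sum_congr rfl fun j _ => add_smul _ _ _)
      map_smul' := fun c v => Subtype.ext (by
        show ∑ j, (c * v j) • _ = c • ∑ j, v j • _
        rw [Finset.smul_sum]
        exact Finset.sum_congr rfl fun j _ => mul_smul _ _ _)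
      invFun := fun y j => (y : Matrix (Fin f) (Fin f) k) 0 j
      left_inv := by
        intro v
        funext j
        show (∑ i, v i • (Matrix.single 0 i 1 : Matrix (Fin f) (Fin f) k)) 0 j = v j
        rw [Matrix.sum_apply, Finset.sum_eq_single j]
        · rw [Matrix.smul_apply, Matrix.single_apply_same, smul_eq_mul, mul_one]
        · intro i _ hi
          rw [Matrix.smul_apply, Matrix.single_apply_of_ne, smul_zero]
          rintro ⟨-, h⟩
          exact hi h
        · intro h; exact absurd (Finset.mem_univ _) h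
      right_inv := by
        rintro ⟨y, hy1, hy2⟩
        apply Subtype.ext
        show ∑ j, y 0 j • (Matrix.single 0 j 1 : Matrix (Fin f) (Fin f) k) = y
        ext a b
        rw [Matrix.sum_apply]
        rw [Finset.sum_eq_single b]
        · by_cases ha : a = 0
          · subst ha
            rw [Matrix.smul_apply, Matrix.single_apply_same, smul_eq_mul, mul_one]
          · have h1 : y a b = 0 := by
              rw [← hy1, Matrix.single_mul_apply_of_ne _ _ _ _ _ ha]
            rw [h1, Matrix.smul_apply, Matrix.single_apply_of_ne, smul_zero]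
            rintro ⟨h, -⟩
            exact ha h.symm
        · intro j _ hj
          rw [Matrix.smul_apply, Matrix.single_apply_of_ne, smul_zero]
          rintro ⟨-, h⟩
          exact hj h
        · intro h; exact absurd (Finset.mem_univ _) h }
  rw [← F.finrank_eq, Module.finrank_fin_fun]

theorem finrank_PW_single :
    Module.finrank k (PW k (Matrix.single 0 0 1 : Matrix (Fin f) (Fin f) k) (Matrix.single 0 0 1)) = 1 := by
  let F : k ≃ₗ[k] PW k (Matrix.single 0 0 1 : Matrix (Fin f) (Fin f) k) (Matrix.single 0 0 1) :=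
    { toFun := fun v => ⟨v • Matrix.single 0 0 1, by
        rw [mul_smul_comm, Matrix.single_mul_single_same, mul_one], by
        rw [smul_mul_assoc, Matrix.single_mul_single_same, mul_one]⟩
      map_add' := fun v w => Subtype.ext (add_smul _ _ _)
      map_smul' := fun c v => Subtype.ext (mul_smul _ _ _)
      invFun := fun y => (y : Matrix (Fin f) (Fin f) k) 0 0
      left_inv := by
        intro v
        show (v • (Matrix.single 0 0 1 : Matrix (Fin f) (Fin f) k)) 0 0 = v
        rw [Matrix.smul_apply, Matrix.single_apply_same, smul_eq_mul, mul_one]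
      right_inv := by
        rintro ⟨y, hy1, hy2⟩
        apply Subtype.ext
        show y 0 0 • (Matrix.single 0 0 1 : Matrix (Fin f) (Fin f) k) = y
        have h1 : y = Matrix.single 0 0 1 * y * Matrix.single 0 0 1 := by rw [hy1, hy2]
        conv_rhs => rw [h1, Matrix.single_mul_mul_single]
        ext a b
        rw [Matrix.smul_apply, Matrix.single_apply, Matrix.single_apply]
        split_ifs <;> simp }
  rw [← F.finrank_eq, Module.finrank_self]

end mat

section rk

variable {k : Type v} [Field k] {A : Type u} [Ring A] [Algebra k A] {n : ℕ} {d : Fin n → ℕ} [∀ i, NeZero (d i)]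

/-- the rank of `e` on the `j`-th component -/
noncomputable def rk (φ : A →ₐ[k] (∀ i, Matrix (Fin (d i)) (Fin (d i)) k)) (e : A) (j : Fin n) : ℕ :=
  Module.finrank k (PW k (Matrix.single 0 0 1 : Matrix (Fin (d j)) (Fin (d j)) k) (φ e j))

theorem rk_one (φ : A →ₐ[k] (∀ i, Matrix (Fin (d i)) (Fin (d i)) k)) (j : Fin n) : rk φ 1 j = d j := by
  rw [rk, map_one, Pi.one_apply, finrank_PW_one]

theorem rk_zero (φ : A →ₐ[k] (∀ i, Matrix (Fin (d i)) (Fin (d i)) k)) {e : A} {j : Fin n} (h : φ e j = 0) :
    rk φ e j = 0 := by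
  have h4 : PW k (Matrix.single 0 0 1 : Matrix (Fin (d j)) (Fin (d j)) k) (φ e j) = ⊥ := by
    rw [eq_bot_iff]
    intro y hy
    have := hy.2
    rw [h, mul_zero] at this
    exact this.symm
  rw [rk, h4, finrank_bot]

theorem rk_single [DecidableEq (Fin n)] {φ : A →ₐ[k] (∀ i, Matrix (Fin (d i)) (Fin (d i)) k)} {g : A} {l : Fin n}
    (hg : φ g = Pi.single l (Matrix.single 0 0 1)) (j : Fin n) : rk φ g j = if j = l then 1 else 0 := by
  split_ifs with h
  · subst h
    rw [rk, hg, Pi.single_eq_same, finrank_PW_single]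
  · apply rk_zero
    rw [hg, Pi.single_eq_of_ne h]

theorem rk_equiv {φ : A →ₐ[k] (∀ i, Matrix (Fin (d i)) (Fin (d i)) k)} {e e' u w : A} (h1 : u * e = u)
    (h2 : e' * u = u) (h3 : w * e' = w) (h4 : e * w = w) (h5 : w * u = e) (h6 : u * w = e') (j : Fin n) :
    rk φ e j = rk φ e' j := by
  apply finrank_PW_equiv (u := φ u j) (w := φ w j)
  · rw [← Pi.mul_apply, ← map_mul, h1]
  · rw [← Pi.mul_apply, ← map_mul, h2]
  · rw [← Pi.mul_apply, ← map_mul, h3]
  · rw [← Pi.mul_apply, ← map_mul, h4]
  · rw [← Pi.mul_apply, ← map_mul, h5]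
  · rw [← Pi.mul_apply, ← map_mul, h6]

theorem rk_add {φ : A →ₐ[k] (∀ i, Matrix (Fin (d i)) (Fin (d i)) k)} {e e₁ : A} (he : e * e = e)
    (h1 : e₁ * e₁ = e₁) (h2 : e * e₁ = e₁) (h3 : e₁ * e = e₁) (j : Fin n) :
    rk φ e j = rk φ e₁ j + rk φ (e - e₁) j := by
  have := finrank_PW_add (k := k) (x := (Matrix.single 0 0 1 : Matrix (Fin (d j)) (Fin (d j)) k))
    (e := φ e j) (e₁ := φ e₁ j) (by rw [← Pi.mul_apply, ← map_mul, he]) (by rw [← Pi.mul_apply, ← map_mul, h1])
    (by rw [← Pi.mul_apply, ← map_mul, h2]) (by rw [← Pi.mul_apply, ← map_mul, h3])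
  rw [rk, this, rk, rk, map_sub, Pi.sub_apply]

/-- **The rank formula.** -/
theorem rank_formula [FiniteDimensional k A] {φ : A →ₐ[k] (∀ i, Matrix (Fin (d i)) (Fin (d i)) k)}
    (hs : Function.Surjective φ) (hn : ∀ a, φ a = 0 → IsNilpotent a) {g : Fin n → A}
    (hgg : ∀ l, g l * g l = g l) (hg : ∀ l, φ (g l) = Pi.single l (Matrix.single 0 0 1)) (x : A) :
    ∀ (N : ℕ) (e : A), e * e = e → Module.finrank k (PW k (1 : A) e) ≤ N →
      Module.finrank k (PW k x e) = ∑ j, rk φ e j * Module.finrank k (PW k x (g j)) := by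
  intro N
  induction N with
  | zero =>
    intro e he hle
    have h1 : PW k (1 : A) e = ⊥ := Submodule.finrank_eq_zero.mp (by omega)
    have h2 : e = 0 := by
      have : e ∈ PW k (1 : A) e := ⟨one_mul e, he⟩
      rw [h1] at this
      exact this
    have h3 : PW k x e = ⊥ := by
      rw [eq_bot_iff]
      intro y hy
      have := hy.2
      rw [h2, mul_zero] at this
      exact this.symm
    rw [h3, finrank_bot]
    symm
    apply Finset.sum_eq_zero
    intro j _
    rw [rk_zero, zero_mul]
    rw [h2, map_zero]; rfl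
  | succ N ih =>
    intro e he hle
    by_cases hφe : φ e = 0
    · have h2 : e = 0 := idem_eq_zero_of_nil he (hn e hφe)
      have h4 : PW k x e = ⊥ := by
        rw [eq_bot_iff]
        intro y hy
        have := hy.2
        rw [h2, mul_zero] at this
        exact this.symm
      rw [h4, finrank_bot]
      symm
      apply Finset.sum_eq_zero
      intro j _
      rw [rk_zero, zero_mul]
      rw [hφe]; rfl
    · obtain ⟨l, i, j, hij⟩ : ∃ l i j, φ e l i j ≠ 0 := by
        by_contra hcon
        push Not at hcon
        exact hφe (by funext l; ext i j; exact hcon l i j)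
      obtain ⟨c, hc⟩ : ∃ c, c = φ e l i j := ⟨_, rfl⟩
      rw [← hc] at hij
      obtain ⟨a, ha⟩ := hs (Pi.single l (Matrix.single 0 i 1))
      obtain ⟨b, hb⟩ := hs (Pi.single l (Matrix.single j 0 1))
      have hvu : φ (g l * a * e * (e * b * g l)) = c • φ (g l) := by
        have h1 : g l * a * e * (e * b * g l) = g l * a * e * b * g l := by
          simp only [mul_assoc]
          rw [← mul_assoc e e, he]
        rw [h1, map_mul, map_mul, map_mul, map_mul, hg, ha, hb]
        funext m
        by_cases hm : m = l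
        · subst hm
          simp only [Pi.mul_apply, Pi.smul_apply, Pi.single_eq_same]
          rw [Matrix.single_mul_single_same, mul_one, Matrix.single_mul_mul_single, one_mul, mul_one,
            Matrix.single_mul_single_same, mul_one, ← hc]
          ext s t
          rw [Matrix.smul_apply, Matrix.single_apply, Matrix.single_apply]
          split_ifs <;> simp
        · simp only [Pi.mul_apply, Pi.smul_apply, Pi.single_eq_of_ne hm, zero_mul, mul_zero, smul_zero]
      obtain ⟨n', hn'⟩ : ∃ n', n' = c⁻¹ • (g l * a * e * (e * b * g l)) - g l := ⟨_, rfl⟩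
      have hφn : φ n' = 0 := by
        rw [hn', map_sub, map_smul, hvu, smul_smul, inv_mul_cancel₀ hij, one_smul, sub_self]
      obtain ⟨t, ht⟩ := (hn n' hφn).isUnit_one_add
      have h0n : g l * n' = n' := by
        rw [hn', mul_sub, mul_smul_comm, hgg]
        congr 2
        simp only [← mul_assoc, hgg]
      have hn0 : n' * g l = n' := by
        rw [hn', sub_mul, smul_mul_assoc, hgg]
        congr 2
        simp only [mul_assoc, hgg]
      have hcomm : (↑t⁻¹ : A) * g l = g l * ↑t⁻¹ := by
        have h1 : (t : A) * g l = g l * t := by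
          rw [ht, add_mul, mul_add, one_mul, mul_one, h0n, hn0]
        calc (↑t⁻¹ : A) * g l = ↑t⁻¹ * (g l * t) * ↑t⁻¹ := by
              rw [mul_assoc, mul_assoc, Units.mul_inv, mul_one]
          _ = ↑t⁻¹ * (t * g l) * ↑t⁻¹ := by rw [h1]
          _ = g l * ↑t⁻¹ := by rw [← mul_assoc, Units.inv_mul, one_mul]
      obtain ⟨u, hu⟩ : ∃ u, u = e * b * g l := ⟨_, rfl⟩
      obtain ⟨w, hw⟩ : ∃ w, w = c⁻¹ • (↑t⁻¹ * (g l * a * e)) := ⟨_, rfl⟩
      have hwu : w * u = g l := by
        have h1 : c⁻¹ • (g l * a * e * (e * b * g l)) = t * g l := by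
          rw [ht, add_mul, one_mul, hn0, hn']
          abel
        rw [hw, hu, smul_mul_assoc, mul_assoc, ← mul_smul_comm, h1, ← mul_assoc, Units.inv_mul, one_mul]
      have hu1 : u * g l = u := by rw [hu, mul_assoc, hgg]
      have hu2 : e * u = u := by rw [hu, ← mul_assoc, ← mul_assoc, he]
      have hw1 : w * e = w := by
        rw [hw, smul_mul_assoc, mul_assoc, mul_assoc (g l * a), he]
      have hw2 : g l * w = w := by
        rw [hw, mul_smul_comm, ← mul_assoc, ← hcomm, mul_assoc, ← mul_assoc (g l), ← mul_assoc (g l), hgg]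
      obtain ⟨e₁, he₁⟩ : ∃ e₁, e₁ = u * w := ⟨_, rfl⟩
      have h11 : e₁ * e₁ = e₁ := by
        rw [he₁]
        calc u * w * (u * w) = u * (w * u) * w := by simp only [mul_assoc]
          _ = u * w := by rw [hwu, hu1]
      have he1 : e * e₁ = e₁ := by rw [he₁, ← mul_assoc, hu2]
      have h1e : e₁ * e = e₁ := by rw [he₁, mul_assoc, hw1]
      have hsub : (e - e₁) * (e - e₁) = e - e₁ := by
        rw [sub_mul, mul_sub, mul_sub, he, he1, h1e, h11, sub_self, sub_zero]
      have k1 : e₁ * u = u := by rw [he₁, mul_assoc, hwu, hu1]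
      have k2 : w * e₁ = w := by rw [he₁, ← mul_assoc, hwu, hw2]
      have hd1 : ∀ x : A, Module.finrank k (PW k x e₁) = Module.finrank k (PW k x (g l)) := by
        intro x
        symm
        exact finrank_PW_equiv (u := u) (w := w) hu1 k1 k2 hw2 hwu he₁.symm
      have hadd : ∀ x : A, Module.finrank k (PW k x e) =
          Module.finrank k (PW k x (g l)) + Module.finrank k (PW k x (e - e₁)) := by
        intro x
        rw [← hd1 x]
        exact finrank_PW_add he h11 he1 h1e
      have hE0 : 0 < Module.finrank k (PW k (1 : A) (g l)) := by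
        rw [Module.finrank_pos_iff_exists_ne_zero]
        refine ⟨⟨g l, one_mul _, hgg l⟩, fun h => ?_⟩
        have h1 : g l = 0 := congrArg Subtype.val h
        have h2 := hg l
        rw [h1, map_zero] at h2
        have h3 := congrFun (congrFun (congrFun h2 l) 0) 0
        rw [Pi.single_eq_same, Matrix.single_apply_same] at h3
        exact zero_ne_one h3
      have h7 := ih (e - e₁) hsub (by have := hadd 1; omega)
      rw [hadd x, h7]
      have h8 : ∀ j, rk φ e j = (if j = l then 1 else 0) + rk φ (e - e₁) j := by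
        intro j
        rw [rk_add he h11 he1 h1e j, ← rk_single (hg l) j]
        congr 1
        symm
        exact rk_equiv (φ := φ) (u := u) (w := w) hu1 k1 k2 hw2 hwu he₁.symm j
      have h9 : ∑ j, rk φ e j * Module.finrank k (PW k x (g j)) =
          ∑ j, ((if j = l then 1 else 0) * Module.finrank k (PW k x (g j)) +
            rk φ (e - e₁) j * Module.finrank k (PW k x (g j))) :=
        Finset.sum_congr rfl fun j _ => by rw [h8 j, add_mul]
      rw [h9, Finset.sum_add_distrib]
      congr 1
      symm
      rw [Finset.sum_eq_single l]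
      · rw [if_pos rfl, one_mul]
      · intro j _ hj
        rw [if_neg hj, zero_mul]
      · intro h; exact absurd (Finset.mem_univ _) h

end rk

end Cfsg.Agent.Lib.AbPim
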