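import Cfsg.Agent.Lib.BrauerApp
import Cfsg.Agent.Lib.MGroups

/-!
# Generalized characters vanishing on `p`-singular elements (helper77)

They are integer combinations of characters induced from linear characters of `p'`-subgroups.
-/

set_option autoImplicit false
set_option linter.all false

namespace Cfsg.Agent.Lib.AbPim

open Cfsg Cfsg.Agent.Lib.CharBasic Cfsg.Agent.Lib.IndFun Cfsg.Agent.Lib.MGroups
open scoped ComplexConjugate

universe u

/-- functions induced from linear characters of `p'`-subgroups -/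
def indSet (p : ℕ) (G : Type u) [Group G] [Fintype G] : Set (G → ℂ) :=
  {F | ∃ K : Subgroup G, ¬ p ∣ Nat.card K ∧ ∃ μ : K →* ℂˣ, F = indFun K (fun x => (μ x : ℂ))}

variable {G : Type u} [Group G] [Fintype G]

theorem ind_closure {p : ℕ} (H : Subgroup G) [Fintype H] {F : H → ℂ} (hF : F ∈ AddSubgroup.closure (indSet p H)) :
    indFun H F ∈ AddSubgroup.closure (indSet p G) := by
  refine AddSubgroup.closure_induction ?_ ?_ ?_ ?_ hF
  · rintro _ ⟨K, hK, μ, rfl⟩
    obtain ⟨μ', h'⟩ := indFun_indFun_hom H K μ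
    apply AddSubgroup.subset_closure
    refine ⟨K.map H.subtype, ?_, μ', h'⟩
    rwa [Nat.card_congr (K.equivMapOfInjective H.subtype H.subtype_injective).symm.toEquiv]
  · rw [indFun_zero]
    exact zero_mem _
  · intro a b _ _ ha hb
    rw [indFun_add]
    exact add_mem ha hb
  · intro a _ ha
    rw [indFun_neg]
    exact neg_mem ha

/-- `p'`-groups -/
theorem mem_closure_of_not_dvd {p : ℕ} (hG : ¬ p ∣ Nat.card G) {f : G → ℂ} (hf : IsGeneralizedCharacter G f) :
    f ∈ AddSubgroup.closure (indSet p G) := by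
  have h1 : ∀ χ : G → ℂ, IsCharacter G χ → χ ∈ AddSubgroup.closure (indSet p G) := by
    intro χ hχ
    refine AddSubgroup.closure_mono ?_ (mem_closure_linInd hχ)
    rintro _ ⟨E, -, lam, rfl⟩
    exact ⟨E, fun h => hG (h.trans (Subgroup.card_subgroup_dvd_card E)), lam, rfl⟩
  obtain ⟨χ, ψ, hχ, hψ, rfl⟩ := hf
  exact sub_mem (h1 χ hχ) (h1 ψ hψ)

/-- nilpotent groups -/
theorem mem_closure_of_nilpotent {p : ℕ} (hp : p.Prime) (hG : Group.IsNilpotent G) {f : G → ℂ}
    (hf : IsGeneralizedCharacter G f) (h0 : ∀ g, p ∣ orderOf g → f g = 0) :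
    f ∈ AddSubgroup.closure (indSet p G) := by
  classical
  obtain ⟨v, hv⟩ : ∃ v, v = (Nat.card G).factorization p := ⟨_, rfl⟩
  obtain ⟨a, ha⟩ : ∃ a, a = Nat.card G / p ^ v := ⟨_, rfl⟩
  have hcard : Nat.card G = p ^ v * a := by
    rw [ha, hv]
    exact (Nat.ordProj_mul_ordCompl_eq_self _ _).symm
  have hpa : ¬ p ∣ a := by
    rw [ha, hv]
    exact Nat.not_dvd_ordCompl hp Nat.card_pos.ne'
  have hcop : Nat.Coprime (p ^ v) a := Nat.Coprime.pow_left _ ((Nat.Prime.coprime_iff_not_dvd hp).2 hpa)
  obtain ⟨e, -, he0, he1, -⟩ := BrauerApp.exists_exp hcop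
  have hcard' : Nat.card (⊤ : Subgroup G) = Nat.card G := Subgroup.card_top
  have hab : Nat.card G = a * p ^ v := by rw [hcard, mul_comm]
  obtain ⟨π, hπ⟩ : ∃ π : G →* G, ∀ x, π x = x ^ e :=
    ⟨NilPow.powHom hG hab hcop.symm he1 he0, fun x => rfl⟩
  -- regular elements
  have hreg : ∀ x : G, ¬ p ∣ orderOf x → π x = x := by
    intro x hx
    rw [hπ]
    have h1 : orderOf x ∣ a := by
      have h2 : orderOf x ∣ p ^ v * a := by rw [← hcard]; exact orderOf_dvd_natCard x
      exact (Nat.Coprime.pow_right v (((Nat.Prime.coprime_iff_not_dvd hp).2 hx).symm)).dvd_of_dvd_mul_left h2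
    have := (pow_eq_pow_iff_modEq (x := x)).mpr (he1.of_dvd h1)
    rwa [pow_one] at this
  have hrange : ∀ x : G, ¬ p ∣ orderOf (π x) := by
    intro x hx
    have h1 : orderOf (π x) ∣ a := by
      apply orderOf_dvd_of_pow_eq_one
      obtain ⟨c, hc⟩ := (Nat.modEq_zero_iff_dvd).mp he0
      rw [hπ, ← pow_mul, hc, mul_assoc, mul_comm c, ← mul_assoc, pow_mul, ← hcard, pow_card_eq_one', one_pow]
    exact hpa (hx.trans h1)
  have hmem : ∀ x : G, x ∈ π.range ↔ ¬ p ∣ orderOf x := by
    intro x
    constructor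
    · rintro ⟨y, rfl⟩
      exact hrange y
    · intro hx
      exact ⟨x, hreg x hx⟩
  set H := π.range with hH
  have hHn : ¬ p ∣ Nat.card H := by
    intro h
    haveI : Fact p.Prime := ⟨hp⟩
    obtain ⟨y, hy⟩ := exists_prime_orderOf_dvd_card' p h
    have h1 := (hmem (y : G)).1 y.2
    rw [Subgroup.orderOf_coe, hy] at h1
    exact h1 dvd_rfl
  have hcl := hf.isClassFunction
  obtain ⟨m, hm⟩ : ∃ m : ℕ, Nat.card G = Nat.card H * m := Subgroup.card_subgroup_dvd_card H
  have hm0 : (m : ℂ) ≠ 0 := by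
    have h1 : 0 < Nat.card G := Nat.card_pos
    rw [hm] at h1
    exact Nat.cast_ne_zero.2 (Nat.pos_of_mul_pos_left h1).ne'
  have hH0 : (Nat.card H : ℂ) ≠ 0 := Nat.cast_ne_zero.2 Nat.card_pos.ne'
  haveI : Fintype H := Fintype.ofFinite H
  obtain ⟨ζ, hζ⟩ : ∃ ζ : H → ℂ, ζ = fun x : H => f x / m := ⟨_, rfl⟩
  have hζg : IsGeneralizedCharacter H ζ := by
    apply isGeneralized_of_classInner
    · intro x y
      rw [hζ]
      show f _ / m = f _ / m
      congr 1
      exact hcl (x : G) (y : G)
    · intro ξ hξ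
      have h1 : IsCharacter G (fun g => ξ (π.rangeRestrict g)) := hξ.isCharacter.comp π.rangeRestrict
      obtain ⟨n, hn⟩ := hf.classInner_int h1.isGeneralized
      refine ⟨n, ?_⟩
      rw [← hn, classInner_def, classInner_def, hm]
      have h2 : ∑ g : G, f g * conj (ξ (π.rangeRestrict g)) = ∑ x : H, f x * conj (ξ (π.rangeRestrict (x : G))) := by
        rw [← Finset.sum_filter_add_sum_filter_not Finset.univ (fun g => g ∈ H)]
        rw [Finset.sum_eq_zero (s := Finset.univ.filter fun g => ¬ g ∈ H), add_zero]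
        · exact Finset.sum_subtype _ (by intro g; simp) _
        · intro g hg
          rw [Finset.mem_filter] at hg
          have : p ∣ orderOf g := by
            by_contra hcon
            exact hg.2 ((hmem g).2 hcon)
          rw [h0 g this, zero_mul]
      have h3 : ∑ x : H, f x * conj (ξ (π.rangeRestrict (x : G))) = ∑ x : H, f x * conj (ξ x) := by
        refine Finset.sum_congr rfl fun x _ => ?_
        congr 3
        exact Subtype.ext (hreg x ((hmem x).1 x.2))
      rw [h2, h3, Finset.mul_sum, Finset.mul_sum]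
      refine Finset.sum_congr rfl fun x _ => ?_
      rw [hζ]
      push_cast
      field_simp
  have hind : f = indFun H ζ := by
    funext g
    rw [indFun_apply]
    by_cases hg : p ∣ orderOf g
    · rw [h0 g hg, Finset.sum_eq_zero, mul_zero]
      intro x _
      rw [extendByZero_not_mem]
      intro hx
      have h1 := (hmem _).1 hx
      have h2 : orderOf (x⁻¹ * g * x) = orderOf g := by
        have := (MulAut.conj x⁻¹).orderOf_eq g
        simpa using this
      rw [h2] at h1
      exact h1 hg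
    · have h1 : ∀ x : G, extendByZero H ζ (x⁻¹ * g * x) = f g / m := by
        intro x
        have h2 : orderOf (x⁻¹ * g * x) = orderOf g := by
          have := (MulAut.conj x⁻¹).orderOf_eq g
          simpa using this
        have h3 : x⁻¹ * g * x ∈ H := (hmem _).2 (by rwa [h2])
        rw [extendByZero_mem _ _ h3, hζ]
        show f (x⁻¹ * g * x) / m = f g / m
        congr 1
        have := hcl g x⁻¹
        rwa [inv_inv] at this
      rw [Finset.sum_congr rfl fun x _ => h1 x, Finset.sum_const, Finset.card_univ, nsmul_eq_mul,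
        ← Nat.card_eq_fintype_card, hm]
      push_cast
      field_simp
  rw [hind]
  exact ind_closure H (mem_closure_of_not_dvd hHn hζg)

/-- **The general case.** -/
theorem mem_closure_indSet {p : ℕ} (hp : p.Prime) {f : G → ℂ}
    (hf : IsGeneralizedCharacter G f) (h0 : ∀ g, p ∣ orderOf g → f g = 0) :
    f ∈ AddSubgroup.closure (indSet p G) := by
  obtain ⟨l, hl, hsum⟩ := BrauerInd.exists_list_one (G := G)
  rw [BrauerInd.classFunction_eq_list_sum l hsum f hf.isClassFunction]
  apply list_sum_mem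
  intro F hF
  obtain ⟨t, ht, rfl⟩ := List.mem_map.mp hF
  obtain ⟨⟨q, hq, htE⟩, htφ⟩ := hl t ht
  have h1 : (t.2.2 : ℂ) • indFun t.1 (fun e : t.1 => t.2.1 e * f e) =
      t.2.2 • indFun t.1 (fun e : t.1 => t.2.1 e * f e) := Int.cast_smul_eq_zsmul ℂ _ _
  rw [h1]
  apply AddSubgroup.zsmul_mem
  haveI : Fintype t.1 := Fintype.ofFinite t.1
  apply ind_closure
  apply mem_closure_of_nilpotent hp (isNilpotent_of_isElementary hq htE)
  · exact htφ.isGeneralized.mul (hf.restrict t.1)
  · intro g hg
    rw [h0 g (by rwa [Subgroup.orderOf_coe]), mul_zero]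

end Cfsg.Agent.Lib.AbPim
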