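import Mathlib
import Cfsg.Agent.Lib.SubgroupTools
import Cfsg.Agent.Lib.Transfer
import Cfsg.Agent.Lib.ClassSizeCounting

/-!
# Groups in which every `p`-element is `p`-central: extensions (helper33)

`G` is a finite group in which every `p`-element is centralised by a Sylow `p`-subgroup, `N` is a normal subgroup
such that `N` and `G / N` have abelian Sylow `p`-subgroups. Then `G` has abelian Sylow `p`-subgroups.
-/

set_option autoImplicit false

namespace Cfsg.Agent.Lib.AbSylExt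

open Subgroup Cfsg.Agent.Lib.SubgroupTools
open scoped Pointwise

variable {G : Type*} [Group G]

/-- `(T ⊔ X)` is Sylow in `N ⊔ X` when `T = S ⊓ N`, `X ≤ S`. -/
theorem not_dvd_relIndex_sup [Finite G] {p : ℕ} (S X N : Subgroup G) [hN : N.Normal] (hXS : X ≤ S)
    (h : ¬ p ∣ (S ⊓ N).relIndex N) : ¬ p ∣ ((S ⊓ N) ⊔ X).relIndex (N ⊔ X) := by
  have hle : (S ⊓ N) ⊔ X ≤ N ⊔ X := sup_le_sup_right inf_le_right X
  have hX1 : X ≤ normalizer (N : Set G) := by rw [normalizer_eq_top]; exact le_top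
  have hX2 : X ≤ normalizer ((S ⊓ N : Subgroup G) : Set G) := by
    intro x hx
    rw [mem_normalizer_iff]
    intro g
    have hxS := hXS hx
    rw [mem_inf, mem_inf]
    constructor
    · rintro ⟨h1, h2⟩
      exact ⟨S.mul_mem (S.mul_mem hxS h1) (S.inv_mem hxS), hN.conj_mem g h2 x⟩
    · rintro ⟨h1, h2⟩
      refine ⟨?_, ?_⟩
      · have := S.mul_mem (S.mul_mem (S.inv_mem hxS) h1) hxS
        simpa [mul_assoc] using this
      · have := hN.conj_mem _ h2 x⁻¹
        simpa [mul_assoc] using this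
  have e1 := card_sup_mul_card_inf (N := N) (H := X) hX1
  have e2 := card_sup_mul_card_inf (N := S ⊓ N) (H := X) hX2
  have e3 : S ⊓ N ⊓ X = N ⊓ X := by
    apply le_antisymm
    · exact inf_le_inf_right X inf_le_right
    · exact le_inf (le_inf (inf_le_right.trans hXS) inf_le_left) inf_le_right
  rw [e3] at e2
  have e4 := card_mul_relIndex_of_le hle
  have e5 := card_mul_relIndex_of_le (inf_le_right : S ⊓ N ≤ N)
  have hpos1 : 0 < Nat.card (S ⊓ N : Subgroup G) := Nat.card_pos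
  have hpos2 : 0 < Nat.card X := Nat.card_pos
  have hpos3 : 0 < Nat.card (N ⊓ X : Subgroup G) := Nat.card_pos
  have key : ((S ⊓ N) ⊔ X).relIndex (N ⊔ X) = (S ⊓ N).relIndex N := by
    apply Nat.eq_of_mul_eq_mul_left (Nat.mul_pos hpos1 hpos2)
    calc Nat.card (S ⊓ N : Subgroup G) * Nat.card X * ((S ⊓ N) ⊔ X).relIndex (N ⊔ X)
        = (Nat.card ((S ⊓ N) ⊔ X : Subgroup G) * ((S ⊓ N) ⊔ X).relIndex (N ⊔ X)) * Nat.card (N ⊓ X : Subgroup G) := by
          rw [← e2]; ring
      _ = Nat.card (N ⊔ X : Subgroup G) * Nat.card (N ⊓ X : Subgroup G) := by rw [e4]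
      _ = Nat.card N * Nat.card X := e1
      _ = Nat.card (S ⊓ N : Subgroup G) * Nat.card X * (S ⊓ N).relIndex N := by rw [← e5]; ring
  rw [key]; exact h

/-- Every `p`-element has class size prime to `p`. -/
def AllCentral (p : ℕ) (G : Type*) [Group G] : Prop :=
  ∀ x : G, (∃ k : ℕ, orderOf x = p ^ k) → ¬ p ∣ (centralizer ({x} : Set G)).index

theorem isPElement_of_mem {p : ℕ} [Fact p.Prime] {P : Subgroup G} (hP : IsPGroup p P) {x : G} (hx : x ∈ P) :
    ∃ k : ℕ, orderOf x = p ^ k := by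
  obtain ⟨k, hk⟩ := (IsPGroup.iff_orderOf.1 hP) ⟨x, hx⟩
  exact ⟨k, by rw [← hk, ← Subgroup.orderOf_coe]⟩

/-- A `p`-element centralised by a Sylow subgroup lies in it. -/
theorem mem_of_le_centralizer [Finite G] {p : ℕ} [hp : Fact p.Prime] (R : Sylow p G) {x : G}
    (hx : ∃ k : ℕ, orderOf x = p ^ k) (hR : (R : Subgroup G) ≤ centralizer ({x} : Set G)) : x ∈ (R : Subgroup G) := by
  have h1 : (R : Subgroup G) ≤ normalizer (zpowers x : Set G) := by
    intro r hr
    have h2 : x * r = r * x := (mem_centralizer_iff.1 (hR hr) x rfl)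
    rw [mem_normalizer_iff]
    intro g
    have hc : ∀ n : ℤ, r * x ^ n * r⁻¹ = x ^ n := by
      intro n
      have : Commute r x := h2.symm
      rw [(this.zpow_right n).eq, mul_inv_cancel_right]
    constructor
    · rintro ⟨n, rfl⟩
      exact ⟨n, (hc n).symm⟩
    · rintro ⟨n, hn⟩
      refine ⟨n, ?_⟩
      change x ^ n = g
      change x ^ n = r * g * r⁻¹ at hn
      have h3 : r⁻¹ * (x ^ n) * r = g := by rw [hn]; group
      rw [← h3]
      have h4 := hc n
      have h5 : r * x ^ n = x ^ n * r := by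
        rw [← h4, inv_mul_cancel_right, h4]
      rw [mul_assoc, ← h5, inv_mul_cancel_left]
  have h2 : IsPGroup p (zpowers x) := by
    obtain ⟨k, hk⟩ := hx
    exact IsPGroup.of_card (n := k) (by rw [Nat.card_zpowers, hk])
  have h3 : IsPGroup p ((R : Subgroup G) ⊔ zpowers x : Subgroup G) := R.isPGroup'.to_sup_of_normal_right' h2 h1
  have h4 : (R : Subgroup G) ⊔ zpowers x = R := R.is_maximal' h3 le_sup_left
  rw [← h4]
  exact le_sup_right (a := (R : Subgroup G)) (mem_zpowers x)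

/-- The Sylow subgroup `S ∩ N` is central in `S`. -/
theorem inf_le_centralizer [Finite G] {p : ℕ} [hp : Fact p.Prime] (hc : AllCentral p G) (N : Subgroup G) [hN : N.Normal]
    (hab : ∀ P : Sylow p N, IsMulCommutative P) (S : Sylow p G) {x : G} (hx : x ∈ (S : Subgroup G)) {t : G}
    (ht : t ∈ (S : Subgroup G) ⊓ N) : t * x = x * t := by
  obtain ⟨R, hR⟩ := ClassSizeCounting.exists_sylow_le_centralizer p x (hc x (isPElement_of_mem S.isPGroup' hx))
  have hxR := mem_of_le_centralizer R (isPElement_of_mem S.isPGroup' hx) hR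
  have hX1 : zpowers x ≤ (S : Subgroup G) := by rw [zpowers_le]; exact hx
  have hX2 : zpowers x ≤ (R : Subgroup G) := by rw [zpowers_le]; exact hxR
  have i1 : ¬ p ∣ ((S : Subgroup G) ⊓ N).relIndex N := by
    rw [inf_relIndex_right]; exact Transfer.not_dvd_relIndex_of_normal S N
  have i2 : ¬ p ∣ ((R : Subgroup G) ⊓ N).relIndex N := by
    rw [inf_relIndex_right]; exact Transfer.not_dvd_relIndex_of_normal R N
  obtain ⟨m, -, hm⟩ := sylow_conj_rel (M := N ⊔ zpowers x) (Q := ((R : Subgroup G) ⊓ N) ⊔ zpowers x)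
    (R := ((S : Subgroup G) ⊓ N) ⊔ zpowers x) (p := p)
    (sup_le_sup_right inf_le_right _) (sup_le_sup_right inf_le_right _)
    (R.isPGroup'.to_le (sup_le inf_le_left hX2)) (S.isPGroup'.to_le (sup_le inf_le_left hX1))
    (not_dvd_relIndex_sup _ _ _ hX2 i2) (not_dvd_relIndex_sup _ _ _ hX1 i1)
  -- the first group is abelian
  have hRN : ∀ a ∈ (R : Subgroup G) ⊓ N, ∀ b ∈ (R : Subgroup G) ⊓ N, a * b = b * a := by
    intro a ha b hb
    have h1 := hab (Transfer.sylowOfNormal R N)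
    have h2 := h1.is_comm.comm (⟨⟨a, ha.2⟩, by change a ∈ (R : Subgroup G); exact ha.1⟩ : (Transfer.sylowOfNormal R N : Subgroup N))
      ⟨⟨b, hb.2⟩, by change b ∈ (R : Subgroup G); exact hb.1⟩
    exact congrArg (fun z => ((z : N) : G)) (congrArg Subtype.val h2)
  have hle : ((R : Subgroup G) ⊓ N) ⊔ zpowers x ≤ centralizer ((((R : Subgroup G) ⊓ N) ⊔ zpowers x : Subgroup G) : Set G) := by
    have a1 : zpowers x ≤ centralizer (((R : Subgroup G) ⊓ N : Subgroup G) : Set G) := by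
      rw [zpowers_le, mem_centralizer_iff]
      intro a ha
      exact ((mem_centralizer_iff.1 (hR ha.1)) x rfl).symm
    have a2 : (R : Subgroup G) ⊓ N ≤ centralizer (((R : Subgroup G) ⊓ N : Subgroup G) : Set G) := by
      intro a ha
      rw [mem_centralizer_iff]
      intro b hb
      exact hRN b hb a ha
    have a3 : zpowers x ≤ centralizer ((zpowers x : Subgroup G) : Set G) := by
      rw [zpowers_le, mem_centralizer_iff]
      rintro b ⟨n, rfl⟩
      exact (Commute.refl x).zpow_left n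
    rw [sup_le_iff]
    constructor
    · rw [le_centralizer_iff, sup_le_iff]
      exact ⟨a2, a1⟩
    · rw [le_centralizer_iff, sup_le_iff]
      refine ⟨?_, a3⟩
      rw [le_centralizer_iff]; exact a1
  -- transport
  have ht2 : t ∈ ((S : Subgroup G) ⊓ N) ⊔ zpowers x := le_sup_left (b := zpowers x) ht
  have hx2 : x ∈ ((S : Subgroup G) ⊓ N) ⊔ zpowers x := le_sup_right (a := (S : Subgroup G) ⊓ N) (mem_zpowers x)
  rw [← hm, mem_conj_smul] at ht2 hx2
  have h5 : m⁻¹ * t * m * (m⁻¹ * x * m) = m⁻¹ * x * m * (m⁻¹ * t * m) := by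
    exact (mem_centralizer_iff.1 (hle hx2)) _ ht2
  have h6 : m * (m⁻¹ * t * m * (m⁻¹ * x * m)) * m⁻¹ = m * (m⁻¹ * x * m * (m⁻¹ * t * m)) * m⁻¹ := by rw [h5]
  have e1 : m * (m⁻¹ * t * m * (m⁻¹ * x * m)) * m⁻¹ = t * x := by group
  have e2 : m * (m⁻¹ * x * m * (m⁻¹ * t * m)) * m⁻¹ = x * t := by group
  rwa [e1, e2] at h6

/-- The main extension result. -/
theorem abelian_of_normal [Finite G] {p : ℕ} [hp : Fact p.Prime] (hc : AllCentral p G) (N : Subgroup G) [hN : N.Normal]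
    (hab : ∀ P : Sylow p N, IsMulCommutative P) (hab2 : ∀ P : Sylow p (G ⧸ N), IsMulCommutative P) (S : Sylow p G) :
    ∀ x ∈ (S : Subgroup G), ∀ s ∈ (S : Subgroup G), x * s = s * x := by
  -- commutators of `S` lie in `N`
  have hcomm : ∀ a ∈ (S : Subgroup G), ∀ b ∈ (S : Subgroup G), a * b * a⁻¹ * b⁻¹ ∈ N := by
    intro a ha b hb
    have h1 := hab2 (S.mapSurjective (QuotientGroup.mk'_surjective N))
    have h2 := h1.is_comm.comm (⟨QuotientGroup.mk' N a, ⟨a, ha, rfl⟩⟩ : ((S.mapSurjective (QuotientGroup.mk'_surjective N) : Sylow p (G ⧸ N)) : Subgroup (G ⧸ N)))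
      ⟨QuotientGroup.mk' N b, ⟨b, hb, rfl⟩⟩
    have h3 : QuotientGroup.mk' N a * QuotientGroup.mk' N b = QuotientGroup.mk' N b * QuotientGroup.mk' N a :=
      congrArg Subtype.val h2
    rw [← QuotientGroup.eq_one_iff]
    change QuotientGroup.mk' N (a * b * a⁻¹ * b⁻¹) = 1
    rw [map_mul, map_mul, map_mul, map_inv, map_inv, h3]
    group
  intro x hx s hs
  obtain ⟨R, hR⟩ := ClassSizeCounting.exists_sylow_le_centralizer p x (hc x (isPElement_of_mem S.isPGroup' hx))
  -- `M = {g | [g, x] ∈ N}`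
  let M : Subgroup G := (centralizer ({QuotientGroup.mk' N x} : Set (G ⧸ N))).comap (QuotientGroup.mk' N)
  have hM : ∀ g : G, g ∈ M ↔ g * x * g⁻¹ * x⁻¹ ∈ N := by
    intro g
    change QuotientGroup.mk' N g ∈ centralizer ({QuotientGroup.mk' N x} : Set (G ⧸ N)) ↔ _
    rw [mem_centralizer_singleton_iff, ← QuotientGroup.eq_one_iff]
    change _ ↔ QuotientGroup.mk' N (g * x * g⁻¹ * x⁻¹) = 1
    rw [map_mul, map_mul, map_mul, map_inv, map_inv, mul_inv_eq_one, mul_inv_eq_iff_eq_mul]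
  have hSM : (S : Subgroup G) ≤ M := by
    intro a ha
    rw [hM]; exact hcomm a ha x hx
  have hRM : (R : Subgroup G) ≤ M := by
    intro a ha
    rw [hM]
    have h1 := (mem_centralizer_iff.1 (hR ha)) x rfl
    rw [← h1]
    have e : x * a * a⁻¹ * x⁻¹ = 1 := by group
    rw [e]; exact N.one_mem
  have hnd : ∀ Q : Sylow p G, (Q : Subgroup G) ≤ M → ¬ p ∣ (Q : Subgroup G).relIndex M := by
    intro Q hQ h
    exact Q.not_dvd_index (h.trans (relIndex_dvd_index_of_le hQ))
  obtain ⟨v, hvM, hv⟩ := sylow_conj_rel hRM hSM R.isPGroup' S.isPGroup' (hnd R hRM) (hnd S hSM)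
  -- `z = v x v⁻¹` commutes with `S`
  have hz : ∀ a ∈ (S : Subgroup G), v * x * v⁻¹ * a = a * (v * x * v⁻¹) := by
    intro a ha
    rw [← hv, mem_conj_smul] at ha
    have h1 : x * (v⁻¹ * a * v) = (v⁻¹ * a * v) * x := (mem_centralizer_iff.1 (hR ha)) x rfl
    have h2 : v * (x * (v⁻¹ * a * v)) * v⁻¹ = v * (v⁻¹ * a * v * x) * v⁻¹ := by rw [h1]
    have e1 : v * (x * (v⁻¹ * a * v)) * v⁻¹ = v * x * v⁻¹ * a := by group
    have e2 : v * (v⁻¹ * a * v * x) * v⁻¹ = a * (v * x * v⁻¹) := by group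
    rwa [e1, e2] at h2
  have hxR := mem_of_le_centralizer R (isPElement_of_mem S.isPGroup' hx) hR
  have hzS : v * x * v⁻¹ ∈ (S : Subgroup G) := by
    rw [← hv, mem_conj_smul]
    have e : v⁻¹ * (v * x * v⁻¹) * v = x := by group
    rw [e]; exact hxR
  have ht : v * x * v⁻¹ * x⁻¹ ∈ (S : Subgroup G) ⊓ N :=
    ⟨(S : Subgroup G).mul_mem hzS ((S : Subgroup G).inv_mem hx), (hM v).1 hvM⟩
  have h1 := inf_le_centralizer hc N hab S hs ht
  have h2 := hz s hs
  -- x = t⁻¹ z
  have e : x = (v * x * v⁻¹ * x⁻¹)⁻¹ * (v * x * v⁻¹) := by group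
  have h3 : Commute (v * x * v⁻¹ * x⁻¹) s := h1
  have h4 : Commute (v * x * v⁻¹) s := h2
  have h5 : Commute ((v * x * v⁻¹ * x⁻¹)⁻¹ * (v * x * v⁻¹)) s := (h3.inv_left).mul_left h4
  rw [← e] at h5
  exact h5

theorem AllCentral.normal [Finite G] {p : ℕ} [hp : Fact p.Prime] (hc : AllCentral p G) (N : Subgroup G) [hN : N.Normal] :
    AllCentral p N := by
  intro x hx
  obtain ⟨k, hk⟩ := hx
  have hx' : ∃ k : ℕ, orderOf (x : G) = p ^ k := ⟨k, by rw [Subgroup.orderOf_coe, hk]⟩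
  obtain ⟨R, hR⟩ := ClassSizeCounting.exists_sylow_le_centralizer p (x : G) (hc x hx')
  apply ClassSizeCounting.not_dvd_of_sylow_le_centralizer p x (Transfer.sylowOfNormal R N)
  intro a ha
  rw [mem_centralizer_singleton_iff]
  have h1 : (a : G) ∈ (R : Subgroup G) := ha
  have h2 := (mem_centralizer_iff.1 (hR h1)) (x : G) rfl
  exact Subtype.ext h2.symm

theorem AllCentral.quotient [Finite G] {p : ℕ} [hp : Fact p.Prime] (hc : AllCentral p G) (N : Subgroup G) [hN : N.Normal] :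
    AllCentral p (G ⧸ N) := by
  intro x hx
  obtain ⟨k, hk⟩ := hx
  have h1 : IsPGroup p (zpowers x) := IsPGroup.of_card (n := k) (by rw [Nat.card_zpowers, hk])
  obtain ⟨P, hP⟩ := h1.exists_le_sylow
  obtain ⟨S, rfl⟩ := Sylow.mapSurjective_surjective (QuotientGroup.mk'_surjective N) p P
  obtain ⟨y, hy, hyx⟩ := hP (mem_zpowers x)
  obtain ⟨R, hR⟩ := ClassSizeCounting.exists_sylow_le_centralizer p y (hc y (isPElement_of_mem S.isPGroup' hy))
  apply ClassSizeCounting.not_dvd_of_sylow_le_centralizer p x (R.mapSurjective (QuotientGroup.mk'_surjective N))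
  rintro _ ⟨a, ha, rfl⟩
  rw [mem_centralizer_singleton_iff, ← hyx]
  have h2 := (mem_centralizer_iff.1 (hR ha)) y rfl
  change QuotientGroup.mk' N a * QuotientGroup.mk' N y = QuotientGroup.mk' N y * QuotientGroup.mk' N a
  rw [← map_mul, ← map_mul, h2]

end Cfsg.Agent.Lib.AbSylExt
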