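import Cfsg.Agent.Lib.AbAct
import Cfsg.Agent.Lib.H25BpD

/-!
# Traces of the star action for abelian defect groups (helper77)
-/

set_option autoImplicit false
set_option linter.all false

namespace Cfsg.Agent.Lib.AbSec

open Cfsg Cfsg.Agent.Lib.BlockRing Cfsg.Agent.Lib.BlockGA Cfsg.Agent.Lib.BlockIdem
open Cfsg.Agent.Lib.BlkIdem Cfsg.Agent.Lib.BlockAlg Cfsg.Agent.Lib.PairAlg Cfsg.Agent.Lib.PairMax
open Cfsg.Agent.Lib.BrauerPairs Cfsg.Agent.Lib.NormalPBlk Cfsg.Agent.Lib.DefPairs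
open Cfsg.Agent.Lib.BlkTransport Cfsg.Agent.Lib.BlkFus Cfsg.Agent.Lib.InducedPair
open Cfsg.Agent.Lib.BlockPair Cfsg.Agent.Lib.PairCount
open Cfsg.Agent.Lib.AbFusion Cfsg.Agent.Lib.AbCount Cfsg.Agent.Lib.BlockSecond
open Cfsg.Agent.Lib.CharBasic Cfsg.Agent.Lib.Contrib Cfsg.Agent.Lib.AbFT Cfsg.Agent.Lib.AbWeis
open Cfsg.Agent.Lib.H25BpW (Sta Wt Wt_self)
open Cfsg.Agent.Lib.H25BpS (Ctx st)
open Cfsg.Agent.Lib.BlockCount (Bl D)
open Cfsg.Agent.Lib.Subsec (fs mem_fs)
open MonoidAlgebra (single)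
open scoped ComplexConjugate Classical

universe u v

variable {p : ℕ} [hp : Fact p.Prime] {M : Ideal AlgInt} [hMm : M.IsMaximal] [hchar : CharP (Kf M) p]
  {G : Type u} [Group G] [Finite G] {B : Set (IrrCharacter G)} {P : Subgroup G} {c : MonoidAlgebra (Kf M) G}

theorem AbMax.ctx (hM : IsPModular p M) (h : AbMax p B P c) : Ctx p B P c := ⟨hM, h.blk, h.pair, h.br, h.max⟩

theorem sta_of (h : AbMax p B P c) {η : G → ℂ} (hη : ∀ t ∈ TT P c, ∀ x ∈ P, η (t * x * t⁻¹) = η x) :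
    Sta p P c η := by
  rintro x g ⟨f, hf, hg⟩
  obtain ⟨z, hz, hzg⟩ := ab_factor h.pair h.max h.ab hf hg
  have hxP : x ∈ P := hf.le (Subgroup.mem_zpowers x)
  have h1 := hη _ hzg x hxP
  rw [← h1]
  congr 1
  rw [Subgroup.mem_centralizer_iff] at hz
  have h2 := hz (g * x * g⁻¹) (by
    rw [H25BpW.cg_zpowers]
    exact Subgroup.mem_zpowers _)
  calc g * x * g⁻¹ = (g * x * g⁻¹ * z) * z⁻¹ := by group
    _ = (z * (g * x * g⁻¹)) * z⁻¹ := by rw [h2]
    _ = z * g * x * (z * g)⁻¹ := by group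

theorem eh_eq_cid (v : G) : eh p P c (Subgroup.zpowers v) =
    cid (Subgroup.centralizer ({v} : Set G)) (bu p P c v) := by
  show cid _ (blkOf M _ _) = cid _ (blkOf M _ _)
  have hC := SubsecNorm.centralizer_zpowers v
  rw [hC]

theorem D_val {v : G} {b : Set (IrrCharacter (Subgroup.centralizer ({v} : Set G)))} {f : G → ℂ}
    (hf : IsClassFunction G f) (s : Subgroup.centralizer ({v} : Set G)) :
    D p v b f s = if ¬ p ∣ orderOf (s : G) then
      lin f (single (v * (s : G)) 1 * cid (Subgroup.centralizer ({v} : Set G)) b) else 0 := by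
  by_cases h : p ∣ orderOf (s : G)
  · rw [if_neg (not_not.2 h), Subsec.D_not_reg (by rwa [← Subgroup.orderOf_coe])]
  · rw [if_pos h, Subsec.D_reg (by rwa [← Subgroup.orderOf_coe])]
    exact blockPart_section hf (fun g hg => Subsec.mem_Cz.1 hg) b s

/-- the components of the star product -/
theorem lin_st (hM : IsPModular p M) (h : AbMax p B P c) {η : G → ℂ} (hη : Sta p P c η) {χ : G → ℂ}
    (hχ : IsClassFunction G χ) (hst : IsClassFunction G (st p P c η χ)) {v : G} (hv : v ∈ P) {s : G}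
    (hs : s ∈ Subgroup.centralizer ({v} : Set G)) (hsp : ¬ p ∣ orderOf s) :
    lin (st p P c η χ) (single (v * s) 1 * eh p P c (Subgroup.zpowers v)) =
      η v * lin χ (single (v * s) 1 * eh p P c (Subgroup.zpowers v)) := by
  have hb : IsPBlock M (bu p P c v) := (h.isInduced hM hv).1
  have h1 := H25BpM.D_F hM (Wt p P c η) hχ (orderOf_mem h.pair.1 hv) ⟨bu p P c v, hb⟩
  have h2 : bid M (Subgroup.centralizer ({v} : Set G)) (bu p P c v) = pr p P c (Subgroup.zpowers v) :=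
    (blkOf_spec (h.belt hv).blk).2
  have h3 : Wt p P c η v (bid M (Subgroup.centralizer ({v} : Set G)) (bu p P c v)) = η v := by
    rw [h2]
    exact Wt_self hη (pr_spec h.pair (zpowers_le_of hv))
  have h4 := congrFun h1 ⟨s, hs⟩
  dsimp only at h4
  rw [h3] at h4
  change D p v (bu p P c v) (st p P c η χ) ⟨s, hs⟩ = _ at h4
  rw [D_val hst, Pi.smul_apply, D_val hχ, if_pos hsp, if_pos hsp, smul_eq_mul] at h4
  rw [eh_eq_cid]
  exact h4

/-- the trace of a section -/
theorem trace_section (hM : IsPModular p M) (h : AbMax p B P c) {v : G} (hv : v ∈ P) :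
    ∑ χ ∈ fs B, ((Nat.card (Subgroup.centralizer ({v} : Set G)) : ℂ)⁻¹ *
      SB p (Subgroup.centralizer ({v} : Set G)) v (eh p P c (Subgroup.zpowers v)) (χ : G → ℂ) (χ : G → ℂ)) =
      lq p P c (Subgroup.zpowers v) := by
  haveI := Fintype.ofFinite G
  haveI := Fintype.ofFinite (Subgroup.centralizer ({v} : Set G))
  obtain ⟨k, hk⟩ := orderOf_mem h.pair.1 hv
  have h1 := Subsec.sec_trace hM hk (h.isInduced hM hv)
  rw [lq_zpowers]
  show _ = ((blockRank p (bu p P c v) : ℕ) : ℂ)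
  rw [← h1]
  refine Finset.sum_congr rfl fun χ _ => ?_
  rw [classInner_def, SB_eq_subtype]
  congr 1
  refine Finset.sum_congr rfl fun s _ => ?_
  rw [D_val χ.2.isClassFunction, eh_eq_cid]
  by_cases hs : p ∣ orderOf (s : G)
  · rw [if_neg (not_not.2 hs), if_neg (not_not.2 hs), zero_mul]
  · rw [if_pos hs, if_pos hs]

/-- the weight of an element -/
noncomputable def wt (P : Subgroup G) (c : MonoidAlgebra (Kf M) G) (v : G) : ℂ :=
  (Nat.card (TT P c ⊓ Subgroup.centralizer ({v} : Set G) : Subgroup G) : ℂ) / (Nat.card (TT P c) : ℂ)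

/-- **The trace of the star action.** -/
theorem trace_st (hM : IsPModular p M) (h : AbMax p B P c) [Fintype G] [Fintype P] {η : G → ℂ} (hη : Sta p P c η)
    (hst : ∀ χ ∈ B, st p P c η (χ : G → ℂ) ∈ spn B) :
    ∑ χ ∈ fs B, classInner (st p P c η (χ : G → ℂ)) (χ : G → ℂ) =
      ∑ v : P, wt P c (v : G) * (η v * lq p P c (Subgroup.zpowers (v : G))) := by
  have h1 : ∀ χ ∈ fs B, classInner (st p P c η (χ : G → ℂ)) (χ : G → ℂ) =
      ∑ v : P, wt P c (v : G) * (η v * ((Nat.card (Subgroup.centralizer ({(v : G)} : Set G)) : ℂ)⁻¹ *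
        SB p (Subgroup.centralizer ({(v : G)} : Set G)) v (eh p P c (Subgroup.zpowers (v : G))) (χ : G → ℂ) (χ : G → ℂ))) := by
    intro χ hχ
    have hχB := mem_fs.1 hχ
    rw [sec_formula hM h (hst χ hχB) χ.2.isClassFunction, sum_mem_eq P]
    refine Finset.sum_congr rfl fun v _ => ?_
    have h2 : SB p (Subgroup.centralizer ({(v : G)} : Set G)) v (eh p P c (Subgroup.zpowers (v : G)))
        (st p P c η (χ : G → ℂ)) (χ : G → ℂ) =
        η v * SB p (Subgroup.centralizer ({(v : G)} : Set G)) v (eh p P c (Subgroup.zpowers (v : G)))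
        (χ : G → ℂ) (χ : G → ℂ) := by
      rw [SB_eq, SB_eq, Finset.mul_sum]
      refine Finset.sum_congr rfl fun s _ => ?_
      by_cases hs : s ∈ Subgroup.centralizer ({(v : G)} : Set G) ∧ ¬ p ∣ orderOf s
      · rw [if_pos hs, if_pos hs, lin_st hM h hη χ.2.isClassFunction (spn_classFunction (hst χ hχB)) v.2 hs.1 hs.2]
        ring
      · rw [if_neg hs, if_neg hs, mul_zero]
    rw [h2, wt]
    ring
  rw [Finset.sum_congr rfl h1, Finset.sum_comm]
  refine Finset.sum_congr rfl fun v _ => ?_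
  rw [← Finset.mul_sum, ← Finset.mul_sum, trace_section hM h v.2]

end Cfsg.Agent.Lib.AbSec
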