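import Cfsg.Agent.Lib.AbWat1
import Cfsg.Agent.Lib.AbFrob2

/-!
# Constancy of the counting function modulo `[P, T]` (helper77)
-/

set_option autoImplicit false
set_option linter.all false

namespace Cfsg.Agent.Lib.AbSec

open Cfsg Cfsg.Agent.Lib.BlockRing Cfsg.Agent.Lib.BlockGA Cfsg.Agent.Lib.BlockIdem
open Cfsg.Agent.Lib.BlkIdem Cfsg.Agent.Lib.BlockAlg Cfsg.Agent.Lib.PairAlg Cfsg.Agent.Lib.PairMax
open Cfsg.Agent.Lib.BrauerPairs Cfsg.Agent.Lib.NormalPBlk Cfsg.Agent.Lib.DefPairs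
open Cfsg.Agent.Lib.BlkTransport Cfsg.Agent.Lib.BlkFus Cfsg.Agent.Lib.InducedPair
open Cfsg.Agent.Lib.BlockPair Cfsg.Agent.Lib.PairCount
open Cfsg.Agent.Lib.AbFusion Cfsg.Agent.Lib.AbCount Cfsg.Agent.Lib.BlockSecond
open Cfsg.Agent.Lib.CharBasic Cfsg.Agent.Lib.Contrib Cfsg.Agent.Lib.AbFT Cfsg.Agent.Lib.AbWeis
open Cfsg.Agent.Lib.H25BpW (Sta Wt Wt_self)
open Cfsg.Agent.Lib.H25BpS (Ctx st)
open Cfsg.Agent.Lib.BlockCount (Bl D)
open Cfsg.Agent.Lib.Subsec (fs mem_fs)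
open MonoidAlgebra (single)
open scoped ComplexConjugate Classical

universe u v

variable {p : ℕ} [hp : Fact p.Prime] {M : Ideal AlgInt} [hMm : M.IsMaximal] [hchar : CharP (Kf M) p]
  {G : Type u} [Group G] [Finite G] {B : Set (IrrCharacter G)} {P : Subgroup G} {c : MonoidAlgebra (Kf M) G}

/-- extension of a linear character by zero -/
noncomputable def exl (θ : P →* ℂˣ) : G → ℂ := fun x => if hx : x ∈ P then (θ ⟨x, hx⟩ : ℂ) else 0

theorem exl_coe (θ : P →* ℂˣ) (v : P) : exl θ (v : G) = (θ v : ℂ) := by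
  rw [exl, dif_pos v.2]

theorem sta_exl (h : AbMax p B P c) {θ : P →* ℂˣ} (hθ : ∀ t : TT P c, θ.comp (au t) = θ) :
    Sta p P c (exl θ) := by
  apply sta_of h
  intro t ht x hx
  have h1 := DFunLike.congr_fun (hθ ⟨t, ht⟩) ⟨x, hx⟩
  have h2 : exl θ (t * x * t⁻¹) = (θ (au (⟨t, ht⟩ : TT P c) ⟨x, hx⟩) : ℂ) := exl_coe θ (au (⟨t, ht⟩ : TT P c) ⟨x, hx⟩)
  rw [h2]
  have h3 : exl θ x = (θ ⟨x, hx⟩ : ℂ) := exl_coe θ ⟨x, hx⟩
  rw [h3, ← h1]
  rfl

theorem st_exl (hM : IsPModular p M) (h : AbMax p B P c) {θ : P →* ℂˣ} (hθ : ∀ t : TT P c, θ.comp (au t) = θ)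
    {χ : IrrCharacter G} (hχ : χ ∈ B) :
    ∃ ψ : IrrCharacter G, ψ ∈ B ∧ (ψ : G → ℂ) = st p P c (exl θ) (χ : G → ℂ) := by
  apply (AbMax.ctx hM h).st_irr (sta_exl h hθ) _ _ _ hχ
  · have : (fun x : P => exl θ (x : G)) = fun x : P => (θ x : ℂ) := by
      funext x
      exact exl_coe θ x
    rw [this]
    exact (isIrrCharacter_of_unitsHom θ).isCharacter.isGeneralized
  · intro x hx
    have := exl_coe θ ⟨x, hx⟩
    rw [this, LinChar.conj_coe, Units.mul_inv]
  · have := exl_coe θ 1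
    rw [Subgroup.coe_one] at this
    rw [this, map_one, Units.val_one]

/-- the star action is free -/
theorem st_exl_ne (hM : IsPModular p M) (h : AbMax p B P c) {θ : P →* ℂˣ} (hθ : ∀ t : TT P c, θ.comp (au t) = θ)
    (hθ1 : θ ≠ 1) {χ : IrrCharacter G} (hχ : χ ∈ B) : st p P c (exl θ) (χ : G → ℂ) ≠ χ := by
  intro he
  obtain ⟨v, hv⟩ : ∃ v : P, θ v ≠ 1 := by
    by_contra hcon
    push Not at hcon
    exact hθ1 (MonoidHom.ext hcon)
  have hb : IsPBlock M (bu p P c v) := (h.isInduced hM v.2).1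
  have h2 : bid M (Subgroup.centralizer ({(v : G)} : Set G)) (bu p P c v) = pr p P c (Subgroup.zpowers (v : G)) :=
    (blkOf_spec (h.belt v.2).blk).2
  have hle : PLE p (Subgroup.zpowers (v : G), bid M (Subgroup.centralizer ({(v : G)} : Set G)) (bu p P c v)) (P, c) := by
    rw [h2]
    exact pr_spec h.pair (zpowers_le_of v.2)
  have h1 := (AbMax.ctx hM h).D_ne_zero_center v.2 (h.ab v.2) ⟨bu p P c v, hb⟩ hle hχ
  have h3 := H25BpM.D_F hM (Wt p P c (exl θ)) χ.2.isClassFunction (orderOf_mem h.pair.1 v.2) ⟨bu p P c v, hb⟩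
  have h4 : Wt p P c (exl θ) (v : G) (bid M (Subgroup.centralizer ({(v : G)} : Set G)) (bu p P c v)) = θ v := by
    rw [Wt_self (sta_exl h hθ) hle, exl_coe]
  change D p (v : G) (bu p P c v) (st p P c (exl θ) (χ : G → ℂ)) = _ at h3
  dsimp only at h3 h1
  rw [he, h4] at h3
  apply h1
  have h5 : ((θ v : ℂ) - 1) • D p (v : G) (bu p P c v) (χ : G → ℂ) = 0 := by
    rw [sub_smul, one_smul, ← h3, sub_self]
  rcases smul_eq_zero.1 h5 with h6 | h6
  · exfalso
    apply hv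
    rw [sub_eq_zero] at h6
    exact Units.ext h6
  · exact h6

/-- the counting function -/
noncomputable def cf (p : ℕ) (P : Subgroup G) (c : MonoidAlgebra (Kf M) G) (v : P) : ℂ :=
  wt P c (v : G) * lq p P c (Subgroup.zpowers (v : G))

theorem sum_cf (hM : IsPModular p M) (h : AbMax p B P c) [Fintype P] {θ : P →* ℂˣ}
    (hθ : ∀ t : TT P c, θ.comp (au t) = θ) :
    ∑ v : P, cf p P c v * (θ v : ℂ) = if θ = 1 then (Nat.card B : ℂ) else 0 := by
  haveI := Fintype.ofFinite G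
  have h1 : ∀ χ ∈ B, st p P c (exl θ) (χ : G → ℂ) ∈ spn B := by
    intro χ hχ
    obtain ⟨ψ, hψ, he⟩ := st_exl hM h hθ hχ
    rw [← he]
    exact Submodule.subset_span ⟨ψ, hψ, rfl⟩
  have h2 := trace_st hM h (sta_exl h hθ) h1
  have h3 : ∑ v : P, cf p P c v * (θ v : ℂ) =
      ∑ v : P, wt P c (v : G) * (exl θ v * lq p P c (Subgroup.zpowers (v : G))) := by
    refine Finset.sum_congr rfl fun v _ => ?_
    rw [exl_coe, cf]; ring
  rw [h3, ← h2]
  split_ifs with hθ1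
  · have h4 : ∀ χ ∈ fs B, classInner (st p P c (exl θ) (χ : G → ℂ)) (χ : G → ℂ) = 1 := by
      intro χ hχ
      rw [(AbMax.ctx hM h).st_trivial (sta_exl h hθ) (fun x hx => by
        have := exl_coe θ ⟨x, hx⟩
        rw [this, hθ1]; rfl) (mem_fs.1 hχ), χ.2.classInner_self]
    rw [Finset.sum_congr rfl h4, Finset.sum_const, nsmul_eq_mul, mul_one]
    norm_cast
    rw [Nat.card_coe_set_eq, Set.ncard_eq_toFinset_card B (Set.toFinite B)]
  · apply Finset.sum_eq_zero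
    intro χ hχ
    obtain ⟨ψ, hψ, he⟩ := st_exl hM h hθ (mem_fs.1 hχ)
    rw [← he]
    apply ψ.2.classInner_eq_zero χ.2
    intro h0
    exact st_exl_ne hM h hθ hθ1 (mem_fs.1 hχ) (he.symm.trans h0)

/-- the subgroup `[P, T]` -/
def cmt (P : Subgroup G) (c : MonoidAlgebra (Kf M) G) : Subgroup P :=
  Subgroup.closure {y | ∃ (x : P) (t : TT P c), y = x⁻¹ * au t x}

theorem stable_of_cmt {θ : P →* ℂˣ} (h : ∀ y ∈ cmt P c, θ y = 1) (t : TT P c) : θ.comp (au t) = θ := by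
  ext x
  have h1 := h (x⁻¹ * au t x) (Subgroup.subset_closure ⟨x, t, rfl⟩)
  rw [map_mul, map_inv, inv_mul_eq_one] at h1
  rw [MonoidHom.comp_apply, ← h1]

theorem cmt_of_stable {θ : P →* ℂˣ} (h : ∀ t : TT P c, θ.comp (au t) = θ) : ∀ y ∈ cmt P c, θ y = 1 := by
  intro y hy
  have : cmt P c ≤ θ.ker := by
    rw [cmt, Subgroup.closure_le]
    rintro _ ⟨x, t, rfl⟩
    have h1 := DFunLike.congr_fun (h t) x
    show x⁻¹ * au t x ∈ θ.ker
    rw [MonoidHom.mem_ker, map_mul, map_inv, inv_mul_eq_one]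
    exact h1.symm
  exact this hy

/-- no fixed points in `[P, T]` -/
theorem cmt_fixed (h : AbMax p B P c) {y : P} (hy : y ∈ cmt P c) (hfix : ∀ t : TT P c, au t y = y) : y = 1 := by
  by_contra hy1
  obtain ⟨θ, hθ⟩ := LinChar.exists_ne_one (P_comm h) hy1
  haveI := Fintype.ofFinite (act P c).range
  obtain ⟨lam, hlam⟩ : ∃ lam : P →* ℂˣ, lam = ∏ α : (act P c).range, θ.comp ((α : MulAut P) : P →* P) := ⟨_, rfl⟩
  have hst : ∀ t : TT P c, lam.comp (au t) = lam := by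
    intro t
    ext x
    rw [hlam, MonoidHom.comp_apply, MonoidHom.finsetProd_apply, MonoidHom.finsetProd_apply]
    congr 1
    refine Fintype.prod_equiv (Equiv.mulRight (⟨act P c t, ⟨t, rfl⟩⟩ : (act P c).range)) _ _ fun α => ?_
    rfl
  have h1 := cmt_of_stable hst y hy
  have h2 : lam y = θ y ^ ei P c := by
    rw [hlam, MonoidHom.finsetProd_apply]
    have h3 : ∀ α : (act P c).range, (θ.comp ((α : MulAut P) : P →* P)) y = θ y := by
      rintro ⟨α, t, rfl⟩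
      show θ (au t y) = θ y
      rw [hfix t]
    rw [Finset.prod_congr rfl fun α _ => h3 α, Finset.prod_const, Finset.card_univ, ← Nat.card_eq_fintype_card,
      card_range_act h]
  rw [h1] at h2
  obtain ⟨k, hk⟩ := orderOf_mem h.pair.1 y.2
  have h4 : θ y ^ p ^ k = 1 := by
    rw [← map_pow, ← map_one θ]
    congr 1
    apply Subtype.ext
    rw [Subgroup.coe_pow, ← hk, pow_orderOf_eq_one]
    rfl
  have h5 : Nat.Coprime (p ^ k) (ei P c) :=
    Nat.Coprime.pow_left _ ((Nat.Prime.coprime_iff_not_dvd hp.out).2 (not_dvd_ei h))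
  apply hθ
  rw [← orderOf_eq_one_iff]
  exact Nat.eq_one_of_dvd_coprimes h5 (orderOf_dvd_of_pow_eq_one h4) (orderOf_dvd_of_pow_eq_one h2.symm)

/-- the counting function is constant on the cosets of `[P, T]` -/
theorem cf_const (hM : IsPModular p M) (h : AbMax p B P c) [Fintype (cmt P c)] (z : P) :
    ∑ y : cmt P c, cf p P c (z * y) = ∑ y : cmt P c, cf p P c (y : P) := by
  haveI := Fintype.ofFinite P
  haveI := LinChar.finite_hom (P_comm h)
  haveI := Fintype.ofFinite (P →* ℂˣ)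
  obtain ⟨g0, hg0⟩ : ∃ g0 : P → ℂ, g0 = fun v => ∑ y : cmt P c, cf p P c (v * y) := ⟨_, rfl⟩
  have hft : ∀ θ : P →* ℂˣ, θ ≠ 1 → ft g0 θ = 0 := by
    intro θ hθ1
    rw [ft_def, hg0]
    have h1 : ∑ v : P, (∑ y : cmt P c, cf p P c (v * y)) * conj (θ v : ℂ) =
        (∑ y : cmt P c, (θ (y : P) : ℂ)) * ∑ v : P, cf p P c v * ((θ⁻¹ : P →* ℂˣ) v : ℂ) := by
      have e1 : ∀ v : P, (∑ y : cmt P c, cf p P c (v * y)) * conj (θ v : ℂ) =
          ∑ y : cmt P c, cf p P c (v * y) * conj (θ v : ℂ) := fun v => Finset.sum_mul _ _ _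
      rw [Finset.sum_congr rfl fun v _ => e1 v, Finset.sum_comm, Finset.sum_mul]
      refine Finset.sum_congr rfl fun y _ => ?_
      rw [Finset.mul_sum]
      refine Fintype.sum_equiv (Equiv.mulRight (y : P)) _ _ fun v => ?_
      show cf p P c (v * y) * conj (θ v : ℂ) = (θ (y : P) : ℂ) * (cf p P c (v * y) * ((θ⁻¹ : P →* ℂˣ) (v * y) : ℂ))
      rw [LinChar.conj_coe, MonoidHom.inv_apply, map_mul, mul_inv, Units.val_mul]
      have : (θ (y : P) : ℂ) * ((θ (y : P))⁻¹ : ℂˣ) = 1 := Units.mul_inv _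
      linear_combination (-(cf p P c (v * y)) * ((θ v)⁻¹ : ℂˣ)) * this
    rw [h1]
    by_cases hN : ∀ y ∈ cmt P c, θ y = 1
    · have hst : ∀ t : TT P c, (θ⁻¹ : P →* ℂˣ).comp (au t) = θ⁻¹ := by
        apply stable_of_cmt
        intro y hy
        rw [MonoidHom.inv_apply, hN y hy, inv_one]
      have hθ' : ¬ (θ⁻¹ : P →* ℂˣ) = 1 := by
        intro h0
        apply hθ1
        ext x
        have h5 := DFunLike.congr_fun h0 x
        rw [MonoidHom.inv_apply, MonoidHom.one_apply, inv_eq_one] at h5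
        rw [h5, MonoidHom.one_apply]
      rw [sum_cf hM h hst, if_neg hθ', mul_zero, mul_zero]
    · push Not at hN
      obtain ⟨y0, hy0, hne⟩ := hN
      have h2 : ∑ y : cmt P c, (θ (y : P) : ℂ) = 0 := by
        have h3 := LinChar.sum_hom (θ.comp (cmt P c).subtype)
        rw [if_neg] at h3
        · exact h3
        · intro h4
          exact hne (DFunLike.congr_fun h4 ⟨y0, hy0⟩)
      rw [h2, zero_mul, mul_zero]
  have hconst : ∀ v : P, g0 v = ft g0 1 := by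
    intro v
    rw [inversion (P_comm h) g0 v, Finset.sum_eq_single (1 : P →* ℂˣ)]
    · simp
    · intro θ _ hθ
      rw [hft θ hθ, zero_mul]
    · intro h'
      exact absurd (Finset.mem_univ _) h'
  have h1 := hconst z
  have h2 := hconst 1
  rw [hg0] at h1 h2
  dsimp only at h1 h2
  rw [h1, ← h2]
  simp only [one_mul]

end Cfsg.Agent.Lib.AbSec
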