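import Cfsg.Agent.Lib.AbWat2

/-!
# Watanabe's theorem: inertially fixed elements (helper77)
-/

set_option autoImplicit false
set_option linter.all false

namespace Cfsg.Agent.Lib.AbSec

open Cfsg Cfsg.Agent.Lib.BlockRing Cfsg.Agent.Lib.BlockGA Cfsg.Agent.Lib.BlockIdem
open Cfsg.Agent.Lib.BlkIdem Cfsg.Agent.Lib.BlockAlg Cfsg.Agent.Lib.PairAlg Cfsg.Agent.Lib.PairMax
open Cfsg.Agent.Lib.BrauerPairs Cfsg.Agent.Lib.NormalPBlk Cfsg.Agent.Lib.DefPairs
open Cfsg.Agent.Lib.BlkTransport Cfsg.Agent.Lib.BlkFus Cfsg.Agent.Lib.InducedPair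
open Cfsg.Agent.Lib.BlockPair Cfsg.Agent.Lib.PairCount
open Cfsg.Agent.Lib.AbFusion Cfsg.Agent.Lib.AbCount Cfsg.Agent.Lib.BlockSecond
open Cfsg.Agent.Lib.CharBasic Cfsg.Agent.Lib.Contrib Cfsg.Agent.Lib.AbFT Cfsg.Agent.Lib.AbWeis
open scoped ComplexConjugate Classical

universe u v

section

variable {p : ℕ} [hp : Fact p.Prime] {M : Ideal AlgInt} [hMm : M.IsMaximal] [hchar : CharP (Kf M) p]
  {G : Type u} [Group G] [Finite G] {B : Set (IrrCharacter G)} {P : Subgroup G} {c : MonoidAlgebra (Kf M) G}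

theorem wt_mul (h : AbMax p B P c) {z : G} (hzT : ∀ t ∈ TT P c, t * z * t⁻¹ = z) (y : G) :
    wt P c (z * y) = wt P c y := by
  have h1 : TT P c ⊓ Subgroup.centralizer ({z * y} : Set G) = TT P c ⊓ Subgroup.centralizer ({y} : Set G) := by
    ext t
    rw [Subgroup.mem_inf, Subgroup.mem_inf]
    refine and_congr_right fun ht => ?_
    rw [Subgroup.mem_centralizer_singleton_iff, Subgroup.mem_centralizer_singleton_iff]
    have h2 : t * z = z * t := by
      have := hzT t ht
      rw [mul_inv_eq_iff_eq_mul] at this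
      exact this
    constructor
    · intro h3
      have h4 : z * (t * y) = z * (y * t) := by
        rw [← mul_assoc, ← h2, mul_assoc, h3]
        group
      exact mul_left_cancel h4
    · intro h3
      rw [← mul_assoc, h2, mul_assoc, h3]
      group
  rw [wt, wt, h1]

theorem zp_sup (z y : G) : Subgroup.zpowers z ⊔ Subgroup.zpowers (z * y) = Subgroup.zpowers z ⊔ Subgroup.zpowers y := by
  apply le_antisymm
  · apply sup_le le_sup_left
    rw [Subgroup.zpowers_le]
    exact mul_mem ((le_sup_left : Subgroup.zpowers z ≤ _) (Subgroup.mem_zpowers z))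
      ((le_sup_right : Subgroup.zpowers y ≤ _) (Subgroup.mem_zpowers _))
  · apply sup_le le_sup_left
    rw [Subgroup.zpowers_le]
    have h1 := mul_mem (inv_mem ((le_sup_left : Subgroup.zpowers z ≤ Subgroup.zpowers z ⊔ Subgroup.zpowers (z * y))
      (Subgroup.mem_zpowers z))) ((le_sup_right : Subgroup.zpowers (z * y) ≤ _) (Subgroup.mem_zpowers _))
    rwa [inv_mul_cancel_left] at h1

/-- representatives of the orbits of the inertial group -/
theorem exists_reps (P : Subgroup G) (c : MonoidAlgebra (Kf M) G) : ∃ R : Finset G, (∀ r ∈ R, r ∈ P) ∧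
      ∀ x ∈ P, ∃! r, r ∈ R ∧ ∃ t ∈ stab (Subgroup.normalizer (P : Set G)) c, t * x * t⁻¹ = r := by
  haveI := Fintype.ofFinite G
  let s : Setoid G := ⟨fun x y => ∃ t ∈ TT P c, t * x * t⁻¹ = y, ⟨fun x => ⟨1, one_mem _, by group⟩, by
    rintro x y ⟨t, ht, rfl⟩
    exact ⟨t⁻¹, inv_mem ht, by group⟩, by
    rintro x y z ⟨t, ht, rfl⟩ ⟨t', ht', rfl⟩
    exact ⟨t' * t, mul_mem ht' ht, by group⟩⟩⟩
  let rep : G → G := fun x => (Quotient.mk s x).out
  have hrep : ∀ x, ∃ t ∈ TT P c, t * x * t⁻¹ = rep x := by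
    intro x
    have : s.r x (rep x) := Quotient.exact (s := s) (Quotient.out_eq (Quotient.mk s x)).symm
    exact this
  have hrep2 : ∀ x y, (∃ t ∈ TT P c, t * x * t⁻¹ = y) → rep x = rep y := by
    intro x y hxy
    have : Quotient.mk s x = Quotient.mk s y := Quotient.sound hxy
    show (Quotient.mk s x).out = (Quotient.mk s y).out
    rw [this]
  refine ⟨(Finset.univ.filter (fun x => x ∈ P)).image rep, ?_, ?_⟩
  · intro r hr
    rw [Finset.mem_image] at hr
    obtain ⟨x, hx, rfl⟩ := hr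
    rw [Finset.mem_filter] at hx
    obtain ⟨t, ht, he⟩ := hrep x
    rw [← he]
    exact conj_mem_of_TT ht hx.2
  · intro x hx
    refine ⟨rep x, ⟨Finset.mem_image.2 ⟨x, Finset.mem_filter.2 ⟨Finset.mem_univ _, hx⟩, rfl⟩, hrep x⟩, ?_⟩
    rintro r ⟨hr, t, ht, he⟩
    rw [Finset.mem_image] at hr
    obtain ⟨y, hy, rfl⟩ := hr
    have h1 := hrep2 x (rep y) ⟨t, ht, he⟩
    have h2 := hrep2 y (rep y) (hrep y)
    rw [h1, ← h2]

theorem wt_one (P : Subgroup G) (c : MonoidAlgebra (Kf M) G) : wt P c 1 = 1 := by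
  have h1 : TT P c ⊓ Subgroup.centralizer ({1} : Set G) = TT P c := by
    apply inf_eq_left.2
    intro t _
    rw [Subgroup.mem_centralizer_singleton_iff, mul_one, one_mul]
  rw [wt, h1, div_self (Nat.cast_ne_zero.2 Nat.card_pos.ne')]

end

variable {p : ℕ} [hp : Fact p.Prime] {M : Ideal AlgInt} [hMm : M.IsMaximal] [hchar : CharP (Kf M) p]

/-- **Watanabe's theorem**: the number of Brauer characters. -/
theorem wat_rank (hM : IsPModular p M) : ∀ (n : ℕ) {G : Type u} [Group G] [Finite G]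
    {B : Set (IrrCharacter G)} {P : Subgroup G} {c : MonoidAlgebra (Kf M) G}, Nat.card G ≤ n → AbMax p B P c →
    ∀ z ∈ P, (∀ t ∈ TT P c, t * z * t⁻¹ = z) → lq p P c (Subgroup.zpowers z) = blockRank p B := by
  intro n
  induction n with
  | zero =>
    intro G _ _ B P c hn
    have := Nat.card_pos (α := G)
    omega
  | succ n ih =>
    intro G _ _ B P c hn h z hz hzT
    haveI := Fintype.ofFinite G
    haveI := Fintype.ofFinite (cmt P c)
    have loc : ∀ v ∈ P, Subgroup.centralizer ({v} : Set G) ≠ ⊤ →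
        lq p P c (Subgroup.zpowers z ⊔ Subgroup.zpowers v) = lq p P c (Subgroup.zpowers v) := by
      intro v hv hne
      have hlt : Nat.card (Subgroup.centralizer ({v} : Set G)) < Nat.card G := by
        rcases lt_or_eq_of_le (Subgroup.card_le_card_group (Subgroup.centralizer ({v} : Set G))) with h1 | h1
        · exact h1
        · exact absurd (Subgroup.eq_top_of_card_eq _ h1) hne
      have hzC : z ∈ Subgroup.centralizer ({v} : Set G) := h.P_le hv hz
      have h1 := ih (by omega) (h.res hv) ⟨z, hzC⟩ (Subgroup.mem_subgroupOf.2 hz) (by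
        intro t ht
        have ht' := (h.mem_stab_res hv).1 ht
        exact Subtype.ext (hzT _ ht'))
      rw [h.lq_res_elt hv ⟨z, hzC⟩ hz] at h1
      rw [h1, lq_zpowers]
      rfl
    have hterm : ∀ y : cmt P c, y ≠ 1 → cf p P c (⟨z, hz⟩ * (y : P)) = cf p P c (y : P) := by
      intro y hy
      obtain ⟨t, ht⟩ : ∃ t : TT P c, au t (y : P) ≠ (y : P) := by
        by_contra hcon
        push Not at hcon
        exact hy (Subtype.ext (cmt_fixed h y.2 hcon))
      have ht2 : (t : G) * ((y : P) : G) * (t : G)⁻¹ ≠ ((y : P) : G) := fun h0 => ht (Subtype.ext h0)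
      have hn1 : Subgroup.centralizer ({((y : P) : G)} : Set G) ≠ ⊤ := by
        intro h0
        have : (t : G) ∈ Subgroup.centralizer ({((y : P) : G)} : Set G) := by rw [h0]; trivial
        rw [Subgroup.mem_centralizer_singleton_iff] at this
        apply ht2
        rw [this, mul_inv_cancel_right]
      have hn2 : Subgroup.centralizer ({z * ((y : P) : G)} : Set G) ≠ ⊤ := by
        intro h0
        have : (t : G) ∈ Subgroup.centralizer ({z * ((y : P) : G)} : Set G) := by rw [h0]; trivial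
        rw [Subgroup.mem_centralizer_singleton_iff] at this
        apply ht2
        have e1 : (t : G) * (z * ((y : P) : G)) * (t : G)⁻¹ = z * ((y : P) : G) := by
          rw [this, mul_inv_cancel_right]
        have e2 : (t : G) * (z * ((y : P) : G)) * (t : G)⁻¹ =
            ((t : G) * z * (t : G)⁻¹) * ((t : G) * ((y : P) : G) * (t : G)⁻¹) := by group
        rw [e2, hzT _ t.2] at e1
        exact mul_left_cancel e1
      have h1 := loc _ (y : P).2 hn1
      have h2 := loc _ (mul_mem hz (y : P).2) hn2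
      have h3 := zp_sup z ((y : P) : G)
      rw [cf, cf]
      show wt P c (z * ((y : P) : G)) * (lq p P c (Subgroup.zpowers (z * ((y : P) : G))) : ℂ) = _
      rw [wt_mul h hzT, ← h2, h3, h1]
    have key := cf_const hM h ⟨z, hz⟩
    rw [← Finset.add_sum_erase _ _ (Finset.mem_univ (1 : cmt P c)),
      ← Finset.add_sum_erase Finset.univ (fun y : cmt P c => cf p P c (y : P)) (Finset.mem_univ (1 : cmt P c)),
      Finset.sum_congr rfl (fun y hy => hterm y (Finset.ne_of_mem_erase hy))] at key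
    have h4 := add_right_cancel key
    rw [cf, cf] at h4
    have e1 : (((⟨z, hz⟩ : P) * ((1 : cmt P c) : P) : P) : G) = z * 1 := rfl
    have e2 : (((1 : cmt P c) : P) : G) = 1 := rfl
    rw [e1, e2, wt_mul h hzT, wt_one, mul_one, one_mul, one_mul, Subgroup.zpowers_one_eq_bot, h.lq_bot] at h4
    exact_mod_cast h4

variable {G : Type u} [Group G] [Finite G] {B : Set (IrrCharacter G)} {P : Subgroup G} {c : MonoidAlgebra (Kf M) G}

/-- **Watanabe's theorem**: the number of irreducible characters. -/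
theorem wat_card (hM : IsPModular p M) (h : AbMax p B P c) {z : G} (hz : z ∈ P)
    (hzT : ∀ t ∈ TT P c, t * z * t⁻¹ = z) : Nat.card (bu p P c z) = Nat.card B := by
  haveI := Fintype.ofFinite G
  obtain ⟨R, hR, hrep⟩ := exists_reps P c
  have hPz := h.P_le hz
  have hTz : TT P c ≤ Subgroup.centralizer ({z} : Set G) := by
    intro t ht
    rw [Subgroup.mem_centralizer_singleton_iff]
    have := hzT t ht
    rw [mul_inv_eq_iff_eq_mul] at this
    exact this
  rw [h.card_eq hM R hR hrep]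
  let R' : Finset (Subgroup.centralizer ({z} : Set G)) := Finset.univ.filter (fun x => (x : G) ∈ R)
  rw [(h.res hz).card_eq hM R' (fun r hr => Subgroup.mem_subgroupOf.2 (hR _ (Finset.mem_filter.1 hr).2)) ?_]
  · symm
    refine Finset.sum_bij' (fun r hr => (⟨r, hPz (hR r hr)⟩ : Subgroup.centralizer ({z} : Set G)))
      (fun r _ => (r : G)) (fun r hr => Finset.mem_filter.2 ⟨Finset.mem_univ _, hr⟩)
      (fun r hr => (Finset.mem_filter.1 hr).2) (fun r _ => rfl) (fun r _ => rfl) ?_
    intro r hr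
    have hrP := hR r hr
    have hzr : z ∈ Subgroup.centralizer ({r} : Set G) := h.P_le hrP hz
    rw [h.lq_res_elt hz ⟨r, hPz hrP⟩ hrP]
    have h1 := wat_rank hM _ le_rfl (h.res hrP) ⟨z, hzr⟩ (Subgroup.mem_subgroupOf.2 hz) (by
      intro t ht
      have ht' := (h.mem_stab_res hrP).1 ht
      exact Subtype.ext (hzT _ ht'))
    rw [h.lq_res_elt hrP ⟨z, hzr⟩ hz] at h1
    show _ = lq p P c (Subgroup.zpowers r ⊔ Subgroup.zpowers z)
    rw [sup_comm, h1, lq_zpowers]
    rfl
  · rintro ⟨x, hxz⟩ hx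
    obtain ⟨r, ⟨hr, t, ht, he⟩, huniq⟩ := hrep x (Subgroup.mem_subgroupOf.1 hx)
    refine ⟨⟨r, hPz (hR r hr)⟩, ⟨Finset.mem_filter.2 ⟨Finset.mem_univ _, hr⟩, ⟨t, hTz ht⟩,
      (h.mem_stab_res hz).2 ht, Subtype.ext he⟩, ?_⟩
    rintro ⟨r', hr'⟩ ⟨hr'R, t', ht', he'⟩
    apply Subtype.ext
    exact huniq r' ⟨(Finset.mem_filter.1 hr'R).2, t', (h.mem_stab_res hz).1 ht', congrArg Subtype.val he'⟩

end Cfsg.Agent.Lib.AbSec
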