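import Mathlib
import Cfsg.Agent.Lib.FusionJ
import Cfsg.Agent.Lib.PGroupRankThree
import Cfsg.Agent.Lib.SubgroupTools
import Cfsg.Agent.Lib.FusionGrp
import Cfsg.Agent.Lib.FusionNormal

/-! Nonabelian `p`-groups with an abelian subgroup of index `p` (helper87). -/

set_option autoImplicit false
open Cfsg Cfsg.FusionSystem Cfsg.Agent.Lib.FusionBasic Cfsg.Agent.Lib.FusionSat Cfsg.Agent.Lib.FusionNormal Cfsg.Agent.Lib

namespace Cfsg.Agent.Lib.AbelIndexP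

variable {Ω : Type*} [Group Ω] {S A P B : Subgroup Ω} {x : Ω} {p : ℕ}

structure AI (S A : Subgroup Ω) (x : Ω) (p : ℕ) : Prop where
  hS : IsPGroup p S
  le : A ≤ S
  comm : ∀ a ∈ A, ∀ b ∈ A, a * b = b * a
  idx : (A.subgroupOf S).index = p
  mem : x ∈ S
  nmem : x ∉ A
  nab : ¬ ∀ u ∈ S, ∀ v ∈ S, u * v = v * u

theorem AI.other (h : AI S A x p) {y : Ω} (hy : y ∈ S) (hyA : y ∉ A) : AI S A y p :=
  ⟨h.hS, h.le, h.comm, h.idx, hy, hyA, h.nab⟩

theorem mem_Z_iff {v : Ω} : v ∈ centralizerIn S S ↔ v ∈ S ∧ ∀ s ∈ S, s * v = v * s := by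
  rw [FusionJ.mem_center_iff]
  constructor
  · rintro ⟨h1, h2⟩
    exact ⟨h1, fun s hs => (mul_inv_eq_iff_eq_mul.1 (h2 s hs)).symm⟩
  · rintro ⟨h1, h2⟩
    exact ⟨h1, fun s hs => by rw [← h2 s hs]; group⟩

section
variable [Finite S] [hp : Fact p.Prime]

theorem AI.card (h : AI S A x p) : Nat.card S = p * Nat.card A := by
  have h1 := (A.subgroupOf S).index_mul_card
  rw [h.idx, Nat.card_congr (Subgroup.subgroupOfEquivOfLe h.le).toEquiv] at h1
  exact h1.symm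

theorem AI.norm (h : AI S A x p) : ∀ s ∈ S, ∀ a ∈ A, s * a * s⁻¹ ∈ A := by
  have hn := PGroupRankThree.normal_of_index_eq_prime h.hS h.idx
  intro s hs a ha
  have h1 := hn.conj_mem (⟨a, h.le ha⟩ : S) (Subgroup.mem_subgroupOf.2 ha) ⟨s, hs⟩
  exact Subgroup.mem_subgroupOf.1 h1

theorem AI.le_normalizer (h : AI S A x p) : S ≤ Subgroup.normalizer (A : Set Ω) := by
  have := finite_of_le h.le
  intro s hs
  exact FusionGrp.mem_normalizer_of_conj_mem (h.norm s hs)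

theorem AI.sup (h : AI S A x p) : A ⊔ Subgroup.zpowers x = S := by
  have hle : A ⊔ Subgroup.zpowers x ≤ S := sup_le h.le (Subgroup.zpowers_le.2 h.mem)
  have hAf := finite_of_le h.le
  have hKf := finite_of_le hle
  apply Subgroup.eq_of_le_of_card_ge hle
  obtain ⟨c, hc⟩ := Subgroup.card_dvd_of_le (le_sup_left : A ≤ A ⊔ Subgroup.zpowers x)
  obtain ⟨d, hd⟩ := Subgroup.card_dvd_of_le hle
  have hApos : 0 < Nat.card A := Nat.card_pos
  have h1 : c ∣ p := by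
    refine ⟨d, ?_⟩
    have h2 := h.card
    rw [hd, hc] at h2
    have h3 : Nat.card A * (c * d) = Nat.card A * p := by rw [← mul_assoc, h2, mul_comm]
    exact (Nat.eq_of_mul_eq_mul_left hApos h3).symm
  rcases (Nat.dvd_prime hp.out).1 h1 with h2 | h2
  · exfalso
    rw [h2, mul_one] at hc
    apply h.nmem
    have h3 : A = A ⊔ Subgroup.zpowers x := Subgroup.eq_of_le_of_card_ge le_sup_left hc.le
    rw [h3]; exact Subgroup.mem_sup_right (Subgroup.mem_zpowers x)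
  · rw [hc, h2, h.card, mul_comm]

theorem AI.gen (h : AI S A x p) {s : Ω} (hs : s ∈ S) : ∃ a ∈ A, ∃ k : ℤ, s = a * x ^ k := by
  have h1 : s ∈ Subgroup.zpowers x ⊔ A := by rw [sup_comm, h.sup]; exact hs
  obtain ⟨_, ⟨k, rfl⟩, a, ha, hka⟩ :=
    (mem_sup_of_normalizes ((Subgroup.zpowers_le.2 h.mem).trans h.le_normalizer)).1 h1
  have hka' : x ^ k * a = s := hka
  refine ⟨x ^ k * a * (x ^ k)⁻¹, h.norm _ (S.zpow_mem h.mem k) a ha, k, ?_⟩
  rw [← hka']; group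

theorem AI.mem_Z (h : AI S A x p) {a : Ω} (ha : a ∈ A) (hx : x * a = a * x) : a ∈ centralizerIn S S := by
  rw [mem_Z_iff]
  refine ⟨h.le ha, fun s hs => ?_⟩
  obtain ⟨b, hb, k, rfl⟩ := h.gen hs
  have h1 : Commute (x ^ k) a := (show Commute x a from hx).zpow_left k
  calc b * x ^ k * a = b * (x ^ k * a) := by group
    _ = (b * a) * x ^ k := by rw [h1.eq]; group
    _ = a * (b * x ^ k) := by rw [h.comm b hb a ha]; group

theorem AI.Z_le (h : AI S A x p) : centralizerIn S S ≤ A := by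
  intro z hz
  by_contra hzA
  have hz' := mem_Z_iff.1 hz
  have h1 := h.other hz'.1 hzA
  apply h.nab
  intro u hu v hv
  obtain ⟨a, ha, k, rfl⟩ := h1.gen hu
  obtain ⟨b, hb, l, rfl⟩ := h1.gen hv
  have h2 : Commute (z ^ k) (b * z ^ l) := (show Commute z (b * z ^ l) from (hz'.2 _ hv).symm).zpow_left k
  have h3 : Commute (z ^ l) a := (show Commute z a from (hz'.2 _ (h.le ha)).symm).zpow_left l
  calc a * z ^ k * (b * z ^ l) = a * (z ^ k * (b * z ^ l)) := by group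
    _ = a * b * (z ^ l) * z ^ k := by rw [h2.eq]; group
    _ = b * (a * z ^ l) * z ^ k := by rw [h.comm a ha b hb]; group
    _ = b * z ^ l * (a * z ^ k) := by rw [← h3.eq]; group

theorem AI.d_mem (h : AI S A x p) {a : Ω} (ha : a ∈ A) : a * x * a⁻¹ * x⁻¹ ∈ A := by
  have h1 : a * x * a⁻¹ * x⁻¹ = a * (x * a⁻¹ * x⁻¹) := by group
  rw [h1]
  exact A.mul_mem ha (h.norm x h.mem _ (A.inv_mem ha))

/-- the endomorphism `a ↦ ⁅a, x⁆` of `A` -/
def AI.D (h : AI S A x p) : A →* A :=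
  MonoidHom.mk' (fun a => ⟨a * x * (a : Ω)⁻¹ * x⁻¹, h.d_mem a.2⟩) (fun a b => Subtype.ext (by
    show (a * b : Ω) * x * (a * b : Ω)⁻¹ * x⁻¹ = (a * x * (a : Ω)⁻¹ * x⁻¹) * (b * x * (b : Ω)⁻¹ * x⁻¹)
    have h1 := h.comm _ (h.d_mem b.2) (x * (a : Ω)⁻¹ * x⁻¹) (h.norm x h.mem _ (A.inv_mem a.2))
    have h2 := h.comm _ (h.d_mem a.2) _ (h.d_mem b.2)
    calc (a * b : Ω) * x * (a * b : Ω)⁻¹ * x⁻¹ = a * ((b * x * (b : Ω)⁻¹ * x⁻¹) * (x * (a : Ω)⁻¹ * x⁻¹)) := by group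
      _ = (a * x * (a : Ω)⁻¹ * x⁻¹) * (b * x * (b : Ω)⁻¹ * x⁻¹) := by rw [h1]; group))

theorem AI.D_apply (h : AI S A x p) (a : A) : ((h.D a : A) : Ω) = a * x * (a : Ω)⁻¹ * x⁻¹ := rfl

theorem AI.D_eq_one_iff (h : AI S A x p) {a : A} : h.D a = 1 ↔ (a : Ω) ∈ centralizerIn S S := by
  constructor
  · intro h1
    have h2 : (a : Ω) * x * (a : Ω)⁻¹ * x⁻¹ = 1 := congrArg Subtype.val h1
    refine h.mem_Z a.2 ?_
    have h3 := mul_inv_eq_one.1 h2
    exact (mul_inv_eq_iff_eq_mul.1 h3).symm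
  · intro h1
    refine Subtype.ext ?_
    rw [h.D_apply, ← (mem_Z_iff.1 h1).2 x h.mem]
    show x * (a : Ω) * (a : Ω)⁻¹ * x⁻¹ = 1
    group

theorem AI.ker (h : AI S A x p) : h.D.ker = (centralizerIn S S).subgroupOf A := by
  ext a
  rw [MonoidHom.mem_ker, h.D_eq_one_iff, Subgroup.mem_subgroupOf]

theorem AI.card_ker (h : AI S A x p) : Nat.card h.D.ker = Nat.card (centralizerIn S S) := by
  rw [h.ker]; exact Nat.card_congr (Subgroup.subgroupOfEquivOfLe h.Z_le).toEquiv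

/-- the image of `D` -/
def AI.C (h : AI S A x p) : Subgroup Ω := h.D.range.map A.subtype

theorem AI.mem_C (h : AI S A x p) {c : Ω} : c ∈ h.C ↔ ∃ a ∈ A, c = a * x * a⁻¹ * x⁻¹ := by
  constructor
  · rintro ⟨_, ⟨a, rfl⟩, rfl⟩
    exact ⟨a, a.2, rfl⟩
  · rintro ⟨a, ha, rfl⟩
    exact ⟨h.D ⟨a, ha⟩, ⟨⟨a, ha⟩, rfl⟩, rfl⟩

theorem AI.C_le (h : AI S A x p) : h.C ≤ A := Subgroup.map_subtype_le _

theorem AI.card_C (h : AI S A x p) : Nat.card h.C * Nat.card (centralizerIn S S) = Nat.card A := by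
  have h1 : Nat.card h.C = Nat.card h.D.range :=
    Nat.card_congr (Subgroup.equivMapOfInjective _ _ A.subtype_injective).symm.toEquiv
  have h2 := h.D.ker.index_mul_card
  rw [Subgroup.index_ker, h.card_ker] at h2
  rw [h1]; exact h2

theorem AI.conj_C (h : AI S A x p) {s c : Ω} (hs : s ∈ S) (hc : c ∈ h.C) : s * c * s⁻¹ ∈ h.C := by
  have hx : ∀ c ∈ h.C, x * c * x⁻¹ ∈ h.C := by
    intro c hc
    obtain ⟨a, ha, rfl⟩ := h.mem_C.1 hc
    exact h.mem_C.2 ⟨x * a * x⁻¹, h.norm x h.mem a ha, by group⟩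
  have hfin : Finite h.C := finite_of_le (h.C_le.trans h.le)
  have hxn : x ∈ Subgroup.normalizer (h.C : Set Ω) := FusionGrp.mem_normalizer_of_conj_mem hx
  have hAn : A ≤ Subgroup.normalizer (h.C : Set Ω) := by
    intro a ha
    refine FusionGrp.mem_normalizer_of_conj_mem fun c hc => ?_
    rw [h.comm a ha c (h.C_le hc)]
    have : c * a * a⁻¹ = c := by group
    rw [this]; exact hc
  have hSn : S ≤ Subgroup.normalizer (h.C : Set Ω) :=
    h.sup.ge.trans (sup_le hAn (Subgroup.zpowers_le.2 hxn))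
  exact (Subgroup.mem_normalizer_iff.1 (hSn hs) c).1 hc

open commutatorElement in
theorem AI.commutator_eq (h : AI S A x p) : (commutator ↥S).map S.subtype = h.C := by
  apply le_antisymm
  · have hn : (h.C.subgroupOf S).Normal := ⟨fun c hc s => by
      rw [Subgroup.mem_subgroupOf] at hc ⊢
      exact h.conj_C s.2 hc⟩
    have h1 : commutator ↥S ≤ h.C.subgroupOf S := by
      rw [← Subgroup.Normal.quotient_commutative_iff_commutator_le]
      have hax : ∀ a : S, (a : Ω) ∈ A → ∀ k : ℤ, Commute ((QuotientGroup.mk' (h.C.subgroupOf S)) a)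
          ((QuotientGroup.mk' (h.C.subgroupOf S)) ⟨x, h.mem⟩ ^ k) := by
        intro a ha k
        apply Commute.zpow_right
        show QuotientGroup.mk' (h.C.subgroupOf S) a * QuotientGroup.mk' (h.C.subgroupOf S) ⟨x, h.mem⟩ =
          QuotientGroup.mk' (h.C.subgroupOf S) ⟨x, h.mem⟩ * QuotientGroup.mk' (h.C.subgroupOf S) a
        rw [← map_mul, ← map_mul, QuotientGroup.mk'_eq_mk']
        refine ⟨(a * ⟨x, h.mem⟩)⁻¹ * (⟨x, h.mem⟩ * a), ?_, by group⟩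
        rw [Subgroup.mem_subgroupOf]
        have h3 : (((a * ⟨x, h.mem⟩)⁻¹ * (⟨x, h.mem⟩ * a) : S) : Ω) = x⁻¹ * ((a : Ω)⁻¹ * x * ((a : Ω)⁻¹)⁻¹ * x⁻¹) * x := by
          push_cast; group
        rw [h3]
        have h4 := h.conj_C (S.inv_mem h.mem) (h.mem_C.2 ⟨(a : Ω)⁻¹, A.inv_mem ha, rfl⟩)
        rw [inv_inv x] at h4
        exact h4
      refine ⟨⟨fun u v => ?_⟩⟩
      obtain ⟨u, rfl⟩ := QuotientGroup.mk'_surjective _ u
      obtain ⟨v, rfl⟩ := QuotientGroup.mk'_surjective _ v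
      obtain ⟨a, ha, k, hu⟩ := h.gen u.2
      obtain ⟨b, hb, l, hv⟩ := h.gen v.2
      have hu' : u = ⟨a, h.le ha⟩ * ⟨x, h.mem⟩ ^ k := Subtype.ext (by rw [hu]; push_cast; rfl)
      have hv' : v = ⟨b, h.le hb⟩ * ⟨x, h.mem⟩ ^ l := Subtype.ext (by rw [hv]; push_cast; rfl)
      have c1 := hax ⟨a, h.le ha⟩ ha l
      have c2 := hax ⟨b, h.le hb⟩ hb k
      have c3 : Commute ((QuotientGroup.mk' (h.C.subgroupOf S)) ⟨a, h.le ha⟩) ((QuotientGroup.mk' (h.C.subgroupOf S)) ⟨b, h.le hb⟩) := by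
        show _ * _ = _ * _
        rw [← map_mul, ← map_mul]
        congr 1
        exact Subtype.ext (h.comm a ha b hb)
      rw [hu', hv', map_mul, map_mul, map_zpow, map_zpow]
      have c4 : Commute ((QuotientGroup.mk' (h.C.subgroupOf S)) ⟨a, h.le ha⟩ * (QuotientGroup.mk' (h.C.subgroupOf S)) ⟨x, h.mem⟩ ^ k)
          ((QuotientGroup.mk' (h.C.subgroupOf S)) ⟨b, h.le hb⟩ * (QuotientGroup.mk' (h.C.subgroupOf S)) ⟨x, h.mem⟩ ^ l) :=
        Commute.mul_left (c3.mul_right c1) (c2.symm.mul_right ((Commute.refl _).zpow_zpow k l))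
      exact c4.eq
    exact Subgroup.map_le_iff_le_comap.2 h1
  · intro c hc
    obtain ⟨a, ha, rfl⟩ := h.mem_C.1 hc
    refine ⟨⁅(⟨a, h.le ha⟩ : S), ⟨x, h.mem⟩⁆, Subgroup.commutator_mem_commutator (Subgroup.mem_top _) (Subgroup.mem_top _), ?_⟩
    rw [commutatorElement_def]; rfl

end

end Cfsg.Agent.Lib.AbelIndexP
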