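import Mathlib

/-!
Abelian permutation groups: orders, extremal products, examples (helper42).
-/

set_option autoImplicit false

namespace Cfsg.Agent.Lib.AbelPerm

open Equiv MulAction

universe u

/-! ### numerical functions -/

/-- the largest product of a partition of `n` -/
def gS : ℕ → ℕ
  | 0 => 1
  | 1 => 1
  | 2 => 2
  | 3 => 3
  | 4 => 4
  | (n + 5) => 3 * gS (n + 2)

/-- the largest product of a partition of `n` without parts `2` -/
def gA : ℕ → ℕ
  | 0 => 1
  | 1 => 1
  | 2 => 1
  | 3 => 3
  | 4 => 4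
  | 5 => 5
  | 6 => 9
  | 7 => 12
  | 8 => 16
  | (n + 9) => 3 * gA (n + 6)

theorem gS_step (n : ℕ) : gS (n + 5) = 3 * gS (n + 2) := by rw [gS]

theorem gA_step (n : ℕ) : gA (n + 9) = 3 * gA (n + 6) := by rw [gA]

theorem gS_mul (m r : ℕ) (hm : 1 ≤ m) : m * gS r ≤ gS (m + r) := by
  have small : ∀ m : ℕ, 1 ≤ m → m ≤ 4 → ∀ r, m * gS r ≤ gS (m + r) := by
    intro m hm1 hm4 r
    induction r using Nat.strong_induction_on with
    | _ r ih =>
      rcases Nat.lt_or_ge r 5 with hr | hr
      · interval_cases m <;> interval_cases r <;> decide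
      · obtain ⟨s, rfl⟩ : ∃ s, r = s + 5 := ⟨r - 5, by omega⟩
        have h1 := ih (s + 2) (by omega)
        rw [gS_step, show m + (s + 5) = (m + s) + 5 by ring, gS_step, show m + s + 2 = m + (s + 2) by ring]
        nlinarith
  induction m using Nat.strong_induction_on with
  | _ m ih =>
    rcases Nat.lt_or_ge m 5 with hm5 | hm5
    · exact small m hm (by omega) r
    · obtain ⟨s, rfl⟩ : ∃ s, m = s + 5 := ⟨m - 5, by omega⟩
      have h1 := ih (s + 2) (by omega) (by omega)
      rw [show s + 5 + r = (s + r) + 5 by ring, gS_step, show s + r + 2 = s + 2 + r by ring]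
      nlinarith

theorem gA_mul (m r : ℕ) (hm : 1 ≤ m) (hm2 : m ≠ 2) : m * gA r ≤ gA (m + r) := by
  have small : ∀ m : ℕ, 1 ≤ m → m ≤ 8 → m ≠ 2 → ∀ r, m * gA r ≤ gA (m + r) := by
    intro m hm1 hm4 hm2 r
    induction r using Nat.strong_induction_on with
    | _ r ih =>
      rcases Nat.lt_or_ge r 9 with hr | hr
      · interval_cases m
        · interval_cases r <;> decide
        · exact absurd rfl hm2
        · interval_cases r <;> decide
        · interval_cases r <;> decide
        · interval_cases r <;> decide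
        · interval_cases r <;> decide
        · interval_cases r <;> decide
        · interval_cases r <;> decide
      · obtain ⟨s, rfl⟩ : ∃ s, r = s + 9 := ⟨r - 9, by omega⟩
        have h1 := ih (s + 6) (by omega)
        rw [gA_step, show m + (s + 9) = (m + s) + 9 by ring, gA_step, show m + s + 6 = m + (s + 6) by ring]
        nlinarith
  induction m using Nat.strong_induction_on with
  | _ m ih =>
    rcases Nat.lt_or_ge m 9 with hm5 | hm5
    · exact small m hm (by omega) hm2 r
    · obtain ⟨s, rfl⟩ : ∃ s, m = s + 9 := ⟨m - 9, by omega⟩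
      have h1 := ih (s + 6) (by omega) (by omega) (by omega)
      rw [show s + 9 + r = (s + r) + 9 by ring, gA_step, show s + r + 6 = s + 6 + r by ring]
      nlinarith

theorem gS_mul_bad (m r : ℕ) (hm : m = 1 ∨ 5 ≤ m) (hmr : 2 ≤ m + r) : 6 * (m * gS r) ≤ 5 * gS (m + r) := by
  have small : ∀ m : ℕ, (m = 1 ∨ 5 ≤ m) → m ≤ 7 → ∀ r, 2 ≤ m + r → 6 * (m * gS r) ≤ 5 * gS (m + r) := by
    intro m hm hm4 r
    induction r using Nat.strong_induction_on with
    | _ r ih =>
      intro hmr
      rcases Nat.lt_or_ge r 5 with hr | hr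
      · rcases hm with rfl | hm
        · interval_cases r <;> first | omega | decide
        · interval_cases m <;> interval_cases r <;> decide
      · obtain ⟨s, rfl⟩ : ∃ s, r = s + 5 := ⟨r - 5, by omega⟩
        have h1 := ih (s + 2) (by omega) (by omega)
        rw [gS_step, show m + (s + 5) = (m + s) + 5 by ring, gS_step, show m + s + 2 = m + (s + 2) by ring]
        nlinarith
  induction m using Nat.strong_induction_on with
  | _ m ih =>
    rcases Nat.lt_or_ge m 8 with hm5 | hm5
    · exact small m hm (by omega) r hmr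
    · obtain ⟨s, rfl⟩ : ∃ s, m = s + 8 := ⟨m - 8, by omega⟩
      have h1 := ih (s + 5) (by omega) (by omega) (by omega)
      rw [show s + 8 + r = (s + 3 + r) + 5 by ring, gS_step, show s + 3 + r + 2 = s + 5 + r by ring]
      nlinarith

theorem prod_le_gS {ι : Type*} (s : Finset ι) (f : ι → ℕ) (hf : ∀ i ∈ s, 1 ≤ f i) : ∏ i ∈ s, f i ≤ gS (∑ i ∈ s, f i) := by
  classical
  induction s using Finset.induction_on with
  | empty => simp [gS]
  | insert a s ha ih =>
    rw [Finset.prod_insert ha, Finset.sum_insert ha]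
    exact (Nat.mul_le_mul_left _ (ih (fun i hi => hf i (Finset.mem_insert_of_mem hi)))).trans
      (gS_mul _ _ (hf a (Finset.mem_insert_self a s)))

theorem prod_le_gA {ι : Type*} (s : Finset ι) (f : ι → ℕ) (hf : ∀ i ∈ s, 1 ≤ f i) (hf2 : ∀ i ∈ s, f i ≠ 2) :
    ∏ i ∈ s, f i ≤ gA (∑ i ∈ s, f i) := by
  classical
  induction s using Finset.induction_on with
  | empty => simp [gA]
  | insert a s ha ih =>
    rw [Finset.prod_insert ha, Finset.sum_insert ha]
    exact (Nat.mul_le_mul_left _ (ih (fun i hi => hf i (Finset.mem_insert_of_mem hi))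
      (fun i hi => hf2 i (Finset.mem_insert_of_mem hi)))).trans
      (gA_mul _ _ (hf a (Finset.mem_insert_self a s)) (hf2 a (Finset.mem_insert_self a s)))

theorem prod_le_bad {ι : Type*} (s : Finset ι) (f : ι → ℕ) (hf : ∀ i ∈ s, 1 ≤ f i) (hs : 2 ≤ ∑ i ∈ s, f i)
    (hbad : ∃ a ∈ s, f a = 1 ∨ 5 ≤ f a) :
    6 * ∏ i ∈ s, f i ≤ 5 * gS (∑ i ∈ s, f i) := by
  classical
  obtain ⟨a, ha, hfa⟩ := hbad
  have h1 := Finset.mul_prod_erase s f ha
  have h2 := Finset.add_sum_erase s f ha
  rw [← h1, ← h2]
  rw [← h2] at hs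
  refine le_trans ?_ (gS_mul_bad _ _ hfa hs)
  apply Nat.mul_le_mul_left
  apply Nat.mul_le_mul_left
  exact prod_le_gS _ f (fun i hi => hf i (Finset.mem_of_mem_erase hi))

theorem gS_three_mul (k : ℕ) : gS (3 * k) = 3 ^ k := by
  induction k with
  | zero => rfl
  | succ k ih =>
    rcases Nat.eq_zero_or_pos k with rfl | hk
    · rfl
    · obtain ⟨j, rfl⟩ : ∃ j, k = j + 1 := ⟨k - 1, by omega⟩
      rw [show 3 * (j + 1 + 1) = (3 * j + 1) + 5 by ring, gS_step, show 3 * j + 1 + 2 = 3 * (j + 1) by ring, ih, pow_succ]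
      ring

theorem gS_three_mul_add_four (k : ℕ) : gS (3 * k + 4) = 4 * 3 ^ k := by
  induction k with
  | zero => rfl
  | succ k ih =>
    rw [show 3 * (k + 1) + 4 = (3 * k + 2) + 5 by ring, gS_step, show 3 * k + 2 + 2 = 3 * k + 4 by ring, ih, pow_succ]
    ring

theorem gS_three_mul_add_two (k : ℕ) : gS (3 * k + 2) = 2 * 3 ^ k := by
  induction k with
  | zero => rfl
  | succ k ih =>
    rw [show 3 * (k + 1) + 2 = (3 * k) + 5 by ring, gS_step, ih, pow_succ]
    ring

theorem gA_three_mul_add_eight (k : ℕ) : gA (3 * k + 8) = 16 * 3 ^ k := by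
  induction k with
  | zero => rfl
  | succ k ih =>
    rw [show 3 * (k + 1) + 8 = (3 * k + 2) + 9 by ring, gA_step, show 3 * k + 2 + 6 = 3 * k + 8 by ring, ih, pow_succ]
    ring

theorem gA_le_gS (n : ℕ) : gA n ≤ gS n := by
  induction n using Nat.strong_induction_on with
  | _ n ih =>
    rcases Nat.lt_or_ge n 9 with h | h
    · interval_cases n <;> decide
    · obtain ⟨s, rfl⟩ : ∃ s, n = s + 9 := ⟨n - 9, by omega⟩
      have h1 := ih (s + 6) (by omega)
      rw [gA_step, show s + 9 = s + 4 + 5 by ring, gS_step]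
      exact Nat.mul_le_mul_left _ h1

/-! ### the structure of abelian permutation groups -/

section
variable {α : Type u} [Finite α] (A : Subgroup (Perm α))

/-- the class of a point -/
abbrev cls (x : α) : orbitRel.Quotient A α := Quotient.mk _ x

/-- size of an orbit -/
noncomputable def size (c : orbitRel.Quotient A α) : ℕ := Nat.card {x : α // cls A x = c}

theorem cls_eq_iff (x y : α) : cls A x = cls A y ↔ ∃ a : A, (a : Perm α) y = x := by
  constructor
  · intro h
    exact Quotient.exact h
  · rintro ⟨a, ha⟩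
    exact Quotient.sound ⟨a, ha⟩

theorem cls_smul (a : A) (x : α) : cls A ((a : Perm α) x) = cls A x := (cls_eq_iff A _ _).mpr ⟨a, rfl⟩

theorem size_pos (c : orbitRel.Quotient A α) : 1 ≤ size A c := by
  obtain ⟨x, rfl⟩ := Quotient.exists_rep c
  have : Nonempty {y : α // cls A y = Quotient.mk _ x} := ⟨⟨x, rfl⟩⟩
  exact Nat.card_pos

theorem sum_size [Fintype (orbitRel.Quotient A α)] : ∑ c, size A c = Nat.card α := by
  rw [← Nat.card_congr (Equiv.sigmaFiberEquiv (fun x : α => cls A x)), Nat.card_sigma]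
  rfl

variable {A}

theorem comm (hA : IsMulCommutative A) (a b : A) (x : α) : (a : Perm α) ((b : Perm α) x) = (b : Perm α) ((a : Perm α) x) := by
  have h := hA.is_comm.comm a b
  have h2 := congrArg (fun g : A => (g : Perm α) x) h
  exact h2

/-- elements of an abelian group agreeing at a point agree on its orbit -/
theorem agree (hA : IsMulCommutative A) {a b : A} {x y : α} (hab : (a : Perm α) x = (b : Perm α) x) (hxy : cls A y = cls A x) :
    (a : Perm α) y = (b : Perm α) y := by
  obtain ⟨c, rfl⟩ := (cls_eq_iff A _ _).mp hxy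
  rw [comm hA, comm hA b, hab]

theorem card_quot (c : orbitRel.Quotient A α) : Nat.card (A ⧸ stabilizer A c.out) = size A c := by
  rw [← Nat.card_congr (orbitEquivQuotientStabilizer A c.out)]
  apply Nat.card_congr
  apply Equiv.subtypeEquivRight
  intro x
  constructor
  · intro h
    have : cls A x = cls A c.out := Quotient.sound h
    rw [this]; exact Quotient.out_eq c
  · intro h
    have h' : (Quotient.mk (orbitRel A α) x) = Quotient.mk _ c.out := h.trans (Quotient.out_eq c).symm
    exact Quotient.exact h'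

theorem normal_stab (hA : IsMulCommutative A) (x : α) : (stabilizer A x).Normal := by
  constructor
  intro n hn g
  have : g * n * g⁻¹ = n := by rw [hA.is_comm.comm g n, mul_inv_cancel_right]
  rw [this]; exact hn

theorem exists_hom (hA : IsMulCommutative A) :
    ∃ (Q : orbitRel.Quotient A α → Type u) (_ : ∀ c, Group (Q c)) (φ : A →* (∀ c, Q c)),
      Function.Injective φ ∧ (∀ c, Finite (Q c)) ∧ (∀ c, Nat.card (Q c) = size A c) ∧
      (∀ c, Function.Surjective (fun a => φ a c)) ∧ (∀ a b c, φ a c = φ b c ↔ ∀ x, cls A x = c → (a : Perm α) x = (b : Perm α) x) := by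
  have hN : ∀ c : orbitRel.Quotient A α, (stabilizer A c.out).Normal := fun c => normal_stab hA _
  have hkey : ∀ (a b : A) (c : orbitRel.Quotient A α), (QuotientGroup.mk a : A ⧸ stabilizer A c.out) = QuotientGroup.mk b ↔
      ∀ x, cls A x = c → (a : Perm α) x = (b : Perm α) x := by
    intro a b c
    rw [QuotientGroup.eq]
    have h1 : (a⁻¹ * b ∈ stabilizer A c.out) ↔ (a : Perm α) c.out = (b : Perm α) c.out := by
      rw [mem_stabilizer_iff, mul_smul, inv_smul_eq_iff]
      exact ⟨fun h => h.symm, fun h => h.symm⟩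
    rw [h1]
    constructor
    · intro h x hx
      exact agree hA h (hx.trans (Quotient.out_eq c).symm)
    · intro h
      exact h _ (Quotient.out_eq c)
  refine ⟨fun c => A ⧸ stabilizer A c.out, fun c => inferInstance,
    Pi.monoidHom (fun c => QuotientGroup.mk' (stabilizer A c.out)), ?_, fun c => inferInstance, card_quot, ?_, ?_⟩
  · intro a b hab
    apply Subtype.ext
    ext x
    exact (hkey a b (cls A x)).mp (congrFun hab (cls A x)) x rfl
  · intro c
    exact QuotientGroup.mk'_surjective _
  · intro a b c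
    exact hkey a b c

theorem card_dvd [Fintype (orbitRel.Quotient A α)] (hA : IsMulCommutative A) : Nat.card A ∣ ∏ c, size A c := by
  obtain ⟨Q, _, φ, hinj, hfin, hcard, -, -⟩ := exists_hom hA
  have h1 := Subgroup.card_dvd_of_injective φ hinj
  rw [Nat.card_pi] at h1
  simpa only [hcard] using h1

/-- if the order is the full product then elements can be prescribed on each orbit -/
theorem full_surj [Fintype (orbitRel.Quotient A α)] (hA : IsMulCommutative A) (hfull : Nat.card A = ∏ c, size A c)
    (u : orbitRel.Quotient A α → A) : ∃ a : A, ∀ x, (a : Perm α) x = (u (cls A x) : Perm α) x := by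
  obtain ⟨Q, _, φ, hinj, hfin, hcard, -, hiff⟩ := exists_hom hA
  have hb : Function.Bijective φ := by
    rw [Nat.bijective_iff_injective_and_card]
    refine ⟨hinj, ?_⟩
    rw [Nat.card_pi, hfull]
    simp only [hcard]
  obtain ⟨a, ha⟩ := hb.2 (fun c => φ (u c) c)
  refine ⟨a, fun x => ?_⟩
  exact (hiff a (u (cls A x)) (cls A x)).mp (congrFun ha _) x rfl

theorem card_le_gS (hA : IsMulCommutative A) : Nat.card A ≤ gS (Nat.card α) := by
  classical
  have := Fintype.ofFinite (orbitRel.Quotient A α)
  rw [← sum_size A]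
  refine le_trans ?_ (prod_le_gS _ _ (fun c _ => size_pos A c))
  exact Nat.le_of_dvd (Finset.prod_pos (fun c _ => size_pos A c)) (card_dvd hA)

end

end Cfsg.Agent.Lib.AbelPerm
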