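import Cfsg.Agent.Lib.AbelPerm

/-!
Abelian permutation groups of maximal order: shape of orbits, conjugacy, examples (helper42).
-/

set_option autoImplicit false

namespace Cfsg.Agent.Lib.AbelPerm

open Equiv MulAction

universe u

section
variable {α : Type u} [Fintype α] [DecidableEq α] {A : Subgroup (Perm α)}

theorem exists_localised [Fintype (orbitRel.Quotient A α)] (hA : IsMulCommutative A) (hfull : Nat.card A = ∏ c, size A c)
    (b : A) (x : α) (hb : (b : Perm α) x ≠ x) :
    ∃ a : A, (∀ z, cls A z = cls A x → (a : Perm α) z = (b : Perm α) z) ∧ (a : Perm α).support.card = size A (cls A x) := by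
  classical
  obtain ⟨a, ha⟩ := full_surj hA hfull (fun c => if c = cls A x then b else 1)
  have h1 : ∀ z, cls A z = cls A x → (a : Perm α) z = (b : Perm α) z := by
    intro z hz
    rw [ha, if_pos hz]
  have h2 : ∀ z, cls A z ≠ cls A x → (a : Perm α) z = z := by
    intro z hz
    rw [ha, if_neg hz]; rfl
  refine ⟨a, h1, ?_⟩
  have h3 : (a : Perm α).support = Finset.univ.filter (fun z => cls A z = cls A x) := by
    ext z
    rw [Perm.mem_support, Finset.mem_filter]
    constructor
    · intro hz
      refine ⟨Finset.mem_univ _, ?_⟩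
      by_contra hne
      exact hz (h2 z hne)
    · rintro ⟨-, hz⟩ haz
      rw [h1 z hz] at haz
      apply hb
      exact agree (a := b) (b := 1) (x := z) (y := x) hA haz hz.symm
  rw [h3, size, Nat.card_eq_fintype_card, Fintype.card_subtype]

theorem no_two [Fintype (orbitRel.Quotient A α)] (hA : IsMulCommutative A) (hfull : Nat.card A = ∏ c, size A c)
    (heven : ∀ a ∈ A, Perm.sign a = 1) (c : orbitRel.Quotient A α) : size A c ≠ 2 := by
  classical
  intro h2
  obtain ⟨x, rfl⟩ := Quotient.exists_rep c
  change size A (cls A x) = 2 at h2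
  obtain ⟨b, hb⟩ : ∃ b : A, (b : Perm α) x ≠ x := by
    by_contra hcon
    push Not at hcon
    have : size A (cls A x) ≤ 1 := by
      rw [size]
      apply Nat.card_eq_fintype_card.trans_le
      rw [Fintype.card_le_one_iff]
      rintro ⟨y, hy⟩ ⟨z, hz⟩
      apply Subtype.ext
      obtain ⟨b, hb⟩ := (cls_eq_iff A _ _).mp hy
      obtain ⟨c, hc⟩ := (cls_eq_iff A _ _).mp hz
      show y = z
      rw [← hb, ← hc, hcon, hcon]
    omega
  obtain ⟨a, -, ha⟩ := exists_localised hA hfull b x hb
  rw [h2, Perm.card_support_eq_two] at ha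
  have h3 := ha.sign_eq
  rw [heven _ a.2] at h3
  exact absurd h3 (by decide)

theorem sq_of_support_four (a : Perm α) (h4 : a.support.card = 4) (hs : Perm.sign a = 1) : a * a = 1 := by
  have h1 := Perm.sign_of_cycleType a
  rw [Perm.sum_cycleType, h4, hs] at h1
  have hcard : Multiset.card a.cycleType * 2 ≤ a.cycleType.sum := by
    have := Multiset.card_nsmul_le_sum (s := a.cycleType) (a := 2) (fun x hx => Perm.two_le_of_mem_cycleType hx)
    simpa using this
  rw [Perm.sum_cycleType, h4] at hcard
  have hcard2 : Multiset.card a.cycleType = 2 := by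
    have h3 : Multiset.card a.cycleType = 0 ∨ Multiset.card a.cycleType = 1 ∨ Multiset.card a.cycleType = 2 := by omega
    rcases h3 with h | h | h
    · rw [Multiset.card_eq_zero, Perm.cycleType_eq_zero] at h
      rw [h] at h4; simp at h4
    · rw [h] at h1
      exact absurd h1 (by decide)
    · exact h
  obtain ⟨p, q, hpq⟩ := Multiset.card_eq_two.mp hcard2
  have hp : 2 ≤ p := Perm.two_le_of_mem_cycleType (σ := a) (by rw [hpq]; simp)
  have hq : 2 ≤ q := Perm.two_le_of_mem_cycleType (σ := a) (by rw [hpq]; simp)
  have hsum : p + q = 4 := by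
    rw [← h4, ← Perm.sum_cycleType, hpq]; simp
  have hp2 : p = 2 := by omega
  have hq2 : q = 2 := by omega
  have h5 := Perm.lcm_cycleType a
  rw [hpq, hp2, hq2] at h5
  have h6 : orderOf a = 2 := by rw [← h5]; rfl
  rw [← pow_two, ← h6, pow_orderOf_eq_one]

theorem sq_of_four [Fintype (orbitRel.Quotient A α)] (hA : IsMulCommutative A) (hfull : Nat.card A = ∏ c, size A c)
    (heven : ∀ a ∈ A, Perm.sign a = 1) (b : A) (x : α) (h4 : size A (cls A x) = 4) : (b : Perm α) ((b : Perm α) x) = x := by
  by_cases hb : (b : Perm α) x = x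
  · rw [hb, hb]
  · obtain ⟨a, ha1, ha⟩ := exists_localised hA hfull b x hb
    rw [h4] at ha
    have h5 := sq_of_support_four (a : Perm α) ha (heven _ a.2)
    have h6 := congrArg (fun g : Perm α => g x) h5
    simp only [Perm.mul_apply, Perm.one_apply] at h6
    rw [ha1 x rfl, ha1 _ (cls_smul A b x)] at h6
    exact h6

/-- permutations acting as elements of `V₄` or `C₃` on each class -/
def D (r : Setoid α) : Set (Perm α) :=
  {g | (∀ x, r (g x) x) ∧ (∀ x y, r y x → g x = x → g y = y) ∧ (∀ x, Nat.card {y // r y x} = 4 → g (g x) = x)}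

theorem D_agree (r : Setoid α) {g h : Perm α} (hg : g ∈ D r) (hh : h ∈ D r) (x : α)
    (hx : Nat.card {y // r y x} = 3 ∨ Nat.card {y // r y x} = 4) (hgh : g x = h x) (y : α) (hy : r y x) : g y = h y := by
  classical
  obtain ⟨hg1, hg2, hg3⟩ := hg
  obtain ⟨hh1, hh2, hh3⟩ := hh
  by_cases hgx : g x = x
  · rw [hg2 x y hy hgx, hh2 x y hy (by rw [← hgh, hgx])]
  have hhx : h x ≠ x := by rw [← hgh]; exact hgx
  set C : Finset α := Finset.univ.filter (fun y => r y x) with hC
  have hmemC : ∀ y, y ∈ C ↔ r y x := by
    intro y; rw [hC, Finset.mem_filter]; exact ⟨fun h => h.2, fun h => ⟨Finset.mem_univ _, h⟩⟩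
  have hcardC : C.card = Nat.card {y // r y x} := by
    rw [Nat.card_eq_fintype_card, Fintype.card_subtype]
  have hxC : x ∈ C := (hmemC x).mpr (r.refl' x)
  have hgC : ∀ y ∈ C, g y ∈ C := fun y hy => (hmemC _).mpr (r.trans' (hg1 y) ((hmemC y).mp hy))
  have hhC : ∀ y ∈ C, h y ∈ C := fun y hy => (hmemC _).mpr (r.trans' (hh1 y) ((hmemC y).mp hy))
  have hgf : ∀ y ∈ C, g y ≠ y := fun y hy hgy => hgx (hg2 y x (r.symm' ((hmemC y).mp hy)) hgy)
  have hhf : ∀ y ∈ C, h y ≠ y := fun y hy hhy => hhx (hh2 y x (r.symm' ((hmemC y).mp hy)) hhy)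
  have hgxC := hgC x hxC
  have hyC := (hmemC y).mpr hy
  by_cases hyx : y = x
  · rw [hyx, hgh]
  rcases hx with h3 | h4
  · rw [← hcardC] at h3
    have hthird : ∀ z ∈ C, z ≠ x → z ≠ g x → g z = x ∧ h z = x := by
      intro z hz hzx hzg
      have hcard : (C \ {z, g x}).card ≤ 1 := by
        rw [Finset.card_sdiff_of_subset (by
          intro w hw; rw [Finset.mem_insert, Finset.mem_singleton] at hw
          rcases hw with rfl | rfl
          · exact hz
          · exact hgxC), Finset.card_pair hzg, h3]
      rw [Finset.card_le_one] at hcard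
      have hxm : x ∈ C \ {z, g x} := by
        rw [Finset.mem_sdiff, Finset.mem_insert, Finset.mem_singleton]
        refine ⟨hxC, ?_⟩
        rintro (h | h)
        · exact hzx h.symm
        · exact hgx h.symm
      constructor
      · apply hcard _ _ _ hxm
        rw [Finset.mem_sdiff, Finset.mem_insert, Finset.mem_singleton]
        refine ⟨hgC z hz, ?_⟩
        rintro (h | h)
        · exact hgf z hz h
        · exact hzx (g.injective h)
      · apply hcard _ _ _ hxm
        rw [Finset.mem_sdiff, Finset.mem_insert, Finset.mem_singleton]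
        refine ⟨hhC z hz, ?_⟩
        rintro (h' | h')
        · exact hhf z hz h'
        · rw [hgh] at h'; exact hzx (h.injective h')
    by_cases hyg : y = g x
    · obtain ⟨z, hz⟩ : (C \ {x, g x}).Nonempty := by
        rw [← Finset.card_pos, Finset.card_sdiff_of_subset (by
          intro w hw; rw [Finset.mem_insert, Finset.mem_singleton] at hw
          rcases hw with rfl | rfl
          · exact hxC
          · exact hgxC), Finset.card_pair (Ne.symm hgx), h3]
        norm_num
      rw [Finset.mem_sdiff, Finset.mem_insert, Finset.mem_singleton, not_or] at hz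
      obtain ⟨h5, h6⟩ := hthird z hz.1 hz.2.1 hz.2.2
      have hcard : (C \ {x, y}).card ≤ 1 := by
        rw [Finset.card_sdiff_of_subset (by
          intro w hw; rw [Finset.mem_insert, Finset.mem_singleton] at hw
          rcases hw with rfl | rfl
          · exact hxC
          · exact hyC), Finset.card_pair (Ne.symm hyx), h3]
      rw [Finset.card_le_one] at hcard
      apply hcard
      · rw [Finset.mem_sdiff, Finset.mem_insert, Finset.mem_singleton]
        refine ⟨hgC y hyC, ?_⟩
        rintro (h | h)
        · rw [← h5] at h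
          exact hz.2.2 ((g.injective h).symm.trans hyg)
        · exact hgf y hyC h
      · rw [Finset.mem_sdiff, Finset.mem_insert, Finset.mem_singleton]
        refine ⟨hhC y hyC, ?_⟩
        rintro (h' | h')
        · rw [← h6] at h'
          exact hz.2.2 ((h.injective h').symm.trans hyg)
        · exact hhf y hyC h'
    · obtain ⟨h5, h6⟩ := hthird y hyC hyx hyg
      rw [h5, h6]
  · have hg4 : ∀ z ∈ C, g (g z) = z := by
      intro z hz
      apply hg3
      rw [← h4]
      apply Nat.card_congr
      apply Equiv.subtypeEquivRight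
      intro w
      exact ⟨fun h => r.trans' h ((hmemC z).mp hz), fun h => r.trans' h (r.symm' ((hmemC z).mp hz))⟩
    have hh4 : ∀ z ∈ C, h (h z) = z := by
      intro z hz
      apply hh3
      rw [← h4]
      apply Nat.card_congr
      apply Equiv.subtypeEquivRight
      intro w
      exact ⟨fun h => r.trans' h ((hmemC z).mp hz), fun h => r.trans' h (r.symm' ((hmemC z).mp hz))⟩
    rw [← hcardC] at h4
    by_cases hyg : y = g x
    · rw [hyg, hg4 x hxC, hgh, hh4 x hxC]
    · have hcard : (C \ {x, g x, y}).card ≤ 1 := by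
        rw [Finset.card_sdiff_of_subset (by
          intro w hw; rw [Finset.mem_insert, Finset.mem_insert, Finset.mem_singleton] at hw
          rcases hw with rfl | rfl | rfl
          · exact hxC
          · exact hgxC
          · exact hyC), h4]
        rw [Finset.card_insert_of_notMem (by
          rw [Finset.mem_insert, Finset.mem_singleton, not_or]
          exact ⟨Ne.symm hgx, Ne.symm hyx⟩), Finset.card_pair (Ne.symm hyg)]
      rw [Finset.card_le_one] at hcard
      apply hcard
      · rw [Finset.mem_sdiff, Finset.mem_insert, Finset.mem_insert, Finset.mem_singleton]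
        refine ⟨hgC y hyC, ?_⟩
        rintro (h | h | h)
        · apply hyg
          rw [← h, hg4 y hyC]
        · exact hyx (g.injective h)
        · exact hgf y hyC h
      · rw [Finset.mem_sdiff, Finset.mem_insert, Finset.mem_insert, Finset.mem_singleton]
        refine ⟨hhC y hyC, ?_⟩
        rintro (h' | h' | h')
        · apply hyg
          rw [hgh, ← h', hh4 y hyC]
        · rw [hgh] at h'; exact hyx (h.injective h')
        · exact hhf y hyC h'

theorem size_eq (x : α) : Nat.card {y // (orbitRel A α) y x} = size A (cls A x) := by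
  apply Nat.card_congr
  apply Equiv.subtypeEquivRight
  intro y
  constructor
  · intro h; exact Quotient.sound h
  · intro h; exact Quotient.exact h

theorem rel_iff (x y : α) : (orbitRel A α) x y ↔ cls A x = cls A y :=
  ⟨fun h => Quotient.sound h, fun h => Quotient.exact h⟩

theorem full_eq_D [Fintype (orbitRel.Quotient A α)] (hA : IsMulCommutative A) (hfull : Nat.card A = ∏ c, size A c)
    (heven : ∀ a ∈ A, Perm.sign a = 1) (h34 : ∀ c, size A c = 3 ∨ size A c = 4) :
    ∀ g : Perm α, g ∈ A ↔ g ∈ D (orbitRel A α) := by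
  have h1 : ∀ g ∈ A, g ∈ D (orbitRel A α) := by
    intro g hg
    refine ⟨?_, ?_, ?_⟩
    · intro x
      exact (rel_iff _ _).mpr (cls_smul A ⟨g, hg⟩ x)
    · intro x y hyx hgx
      exact agree (a := ⟨g, hg⟩) (b := 1) hA hgx ((rel_iff _ _).mp hyx)
    · intro x hx
      rw [size_eq] at hx
      exact sq_of_four hA hfull heven ⟨g, hg⟩ x hx
  intro g
  refine ⟨h1 g, ?_⟩
  intro hg
  have h2 : ∀ c : orbitRel.Quotient A α, ∃ a : A, (a : Perm α) c.out = g c.out := by
    intro c
    obtain ⟨a, ha⟩ := (cls_eq_iff A _ _).mp ((rel_iff _ _).mp (hg.1 c.out))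
    exact ⟨a, ha⟩
  choose u hu using h2
  obtain ⟨a, ha⟩ := full_surj hA hfull u
  have h3 : (a : Perm α) = g := by
    ext x
    rw [ha]
    refine D_agree (orbitRel A α) (h1 _ (u (cls A x)).2) hg (cls A x).out ?_ (hu _) x ?_
    · rw [size_eq]; exact h34 _
    · rw [rel_iff]
      exact (Quotient.out_eq (cls A x)).symm
  rw [← h3]; exact a.2

theorem inv_self' (s : Perm α) (x : α) : s⁻¹ (s x) = x := s.symm_apply_apply x

theorem conj_D (r r' : Setoid α) (s : Perm α) (hs : ∀ x y, r x y ↔ r' (s x) (s y)) (g : Perm α) :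
    g ∈ D r ↔ s * g * s⁻¹ ∈ D r' := by
  have hcard : ∀ x, Nat.card {y // r' y (s x)} = Nat.card {y // r y x} := by
    intro x
    symm
    apply Nat.card_congr
    exact Equiv.subtypeEquiv s (fun y => hs y x)
  constructor
  · rintro ⟨h1, h2, h3⟩
    refine ⟨?_, ?_, ?_⟩
    · intro x
      obtain ⟨x, rfl⟩ := s.surjective x
      simp only [Perm.mul_apply, inv_self']
      exact (hs _ _).mp (h1 x)
    · intro x y
      obtain ⟨x, rfl⟩ := s.surjective x
      obtain ⟨y, rfl⟩ := s.surjective y
      simp only [Perm.mul_apply, inv_self', EmbeddingLike.apply_eq_iff_eq]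
      intro hyx hgx
      exact h2 x y ((hs _ _).mpr hyx) hgx
    · intro x
      obtain ⟨x, rfl⟩ := s.surjective x
      simp only [Perm.mul_apply, inv_self', EmbeddingLike.apply_eq_iff_eq]
      rw [hcard]
      exact h3 x
  · rintro ⟨h1, h2, h3⟩
    refine ⟨?_, ?_, ?_⟩
    · intro x
      have := h1 (s x)
      simp only [Perm.mul_apply, inv_self'] at this
      exact (hs _ _).mpr this
    · intro x y hyx hgx
      have := h2 (s x) (s y) ((hs _ _).mp hyx)
      simp only [Perm.mul_apply, inv_self', EmbeddingLike.apply_eq_iff_eq] at this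
      exact this hgx
    · intro x hx
      have := h3 (s x)
      simp only [Perm.mul_apply, inv_self', EmbeddingLike.apply_eq_iff_eq] at this
      rw [hcard] at this
      exact this hx

end

end Cfsg.Agent.Lib.AbelPerm
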