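import Cfsg.Agent.Lib.AbelPerm2

/-!
Abelian permutation groups of maximal order: matching of orbits, examples, conjugacy (helper42).
-/

set_option autoImplicit false

namespace Cfsg.Agent.Lib.AbelPerm

open Equiv MulAction
open scoped Pointwise

universe u

section matching
variable {α : Type u} [Fintype α] [DecidableEq α] {A B : Subgroup (Perm α)}

theorem prod_eq_pow {ι : Type*} [Fintype ι] [DecidableEq ι] (f : ι → ℕ) (hf : ∀ c, f c = 3 ∨ f c = 4) :
    ∏ c, f c = 4 ^ (Fintype.card {c // f c = 4}) * 3 ^ (Fintype.card {c // f c = 3}) := by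
  have h1 : ∀ c, f c = if f c = 4 then 4 else 3 := by
    intro c
    rcases hf c with h | h
    · rw [h]; rfl
    · rw [h]; rfl
  have h2 : ∏ c, f c = ∏ c, if f c = 4 then 4 else 3 := Finset.prod_congr rfl (fun c _ => h1 c)
  rw [h2, Finset.prod_ite, Finset.prod_const, Finset.prod_const, Fintype.card_subtype, Fintype.card_subtype]
  congr 3
  ext c
  rw [Finset.mem_filter, Finset.mem_filter]
  rcases hf c with h | h
  · simp [h]
  · simp [h]

theorem pow_inj (a b a' b' : ℕ) (h : 4 ^ a * 3 ^ b = 4 ^ a' * 3 ^ b') : a = a' ∧ b = b' := by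
  have h1 : ∀ a b a' b' : ℕ, 4 ^ a * 3 ^ b = 4 ^ a' * 3 ^ b' → a ≤ a' := by
    intro a b a' b' h
    have h2 : 4 ^ a ∣ 4 ^ a' * 3 ^ b' := h ▸ dvd_mul_right _ _
    have h3 : Nat.Coprime (4 ^ a) (3 ^ b') := Nat.Coprime.pow _ _ (by norm_num)
    exact (Nat.pow_dvd_pow_iff_le_right (by norm_num)).mp (h3.dvd_of_dvd_mul_right h2)
  have haa : a = a' := le_antisymm (h1 _ _ _ _ h) (h1 _ _ _ _ h.symm)
  refine ⟨haa, ?_⟩
  rw [haa] at h
  have h4 := Nat.eq_of_mul_eq_mul_left (by positivity) h
  exact Nat.pow_right_injective (le_refl _ |>.trans (by norm_num)) h4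

theorem exists_match [Fintype (orbitRel.Quotient A α)] [Fintype (orbitRel.Quotient B α)]
    (hA : ∀ c, size A c = 3 ∨ size A c = 4) (hB : ∀ c, size B c = 3 ∨ size B c = 4)
    (hprod : ∏ c, size A c = ∏ c, size B c) :
    ∃ s : Perm α, ∀ x y, cls A x = cls A y ↔ cls B (s x) = cls B (s y) := by
  classical
  rw [prod_eq_pow _ hA, prod_eq_pow _ hB] at hprod
  obtain ⟨h4, h3⟩ := pow_inj _ _ _ _ hprod
  have hn : ∀ n, Fintype.card {c // size A c = n} = Fintype.card {c // size B c = n} := by
    intro n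
    by_cases hn3 : n = 3
    · rw [hn3]; exact h3
    by_cases hn4 : n = 4
    · rw [hn4]; exact h4
    have hA' : IsEmpty {c // size A c = n} := ⟨fun ⟨c, hc⟩ => by
      rcases hA c with h | h <;> omega⟩
    have hB' : IsEmpty {c // size B c = n} := ⟨fun ⟨c, hc⟩ => by
      rcases hB c with h | h <;> omega⟩
    rw [Fintype.card_eq_zero, Fintype.card_eq_zero]
  let e : orbitRel.Quotient A α ≃ orbitRel.Quotient B α :=
    Equiv.ofFiberEquiv (f := size A) (g := size B) (fun n => Fintype.equivOfCardEq (hn n))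
  have he : ∀ c, size B (e c) = size A c := fun c => Equiv.ofFiberEquiv_map _ c
  have hfib : ∀ c, Nonempty ({x // cls A x = c} ≃ {x // cls B x = e c}) := by
    intro c
    have := he c
    exact Finite.card_eq.mp this.symm
  let F : ∀ c, {x // cls A x = c} ≃ {x // cls B x = e c} := fun c => (hfib c).some
  let s : α ≃ α := (Equiv.sigmaFiberEquiv (fun x : α => cls A x)).symm.trans
    ((Equiv.sigmaCongr e F).trans (Equiv.sigmaFiberEquiv (fun x : α => cls B x)))
  have hs : ∀ x, cls B (s x) = e (cls A x) := fun x => (F (cls A x) ⟨x, rfl⟩).2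
  refine ⟨s, fun x y => ?_⟩
  rw [hs, hs, e.injective.eq_iff]

end matching

section examples

/-- there is an abelian permutation group of order `c` (even if `P`) on `α` -/
def Ex (P : Prop) (α : Type) [Fintype α] [DecidableEq α] (c : ℕ) : Prop :=
  ∃ (G : Type) (_ : CommGroup G) (_ : Finite G) (φ : G →* Perm α), Function.Injective φ ∧ Nat.card G = c ∧
    (P → ∀ g, Perm.sign (φ g) = 1)

variable {P : Prop}

theorem Ex.sum {α β : Type} [Fintype α] [DecidableEq α] [Fintype β] [DecidableEq β] {c d : ℕ} (h : Ex P α c) (h' : Ex P β d) :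
    Ex P (α ⊕ β) (c * d) := by
  obtain ⟨G, _, _, φ, hφ, hc, hs⟩ := h
  obtain ⟨H, _, _, ψ, hψ, hd, hs'⟩ := h'
  refine ⟨G × H, inferInstance, inferInstance, (Perm.sumCongrHom α β).comp (φ.prodMap ψ), ?_, ?_, ?_⟩
  · intro a b hab
    have h1 := Perm.sumCongrHom_injective hab
    exact Prod.ext (hφ (congrArg Prod.fst h1)) (hψ (congrArg Prod.snd h1))
  · rw [Nat.card_prod, hc, hd]
  · intro hP g
    show Perm.sign (Perm.sumCongr (φ g.1) (ψ g.2)) = 1
    rw [Perm.sign_sumCongr, hs hP, hs' hP, one_mul]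

theorem Ex.congr {α β : Type} [Fintype α] [DecidableEq α] [Fintype β] [DecidableEq β] {c : ℕ} (e : α ≃ β) (h : Ex P α c) :
    Ex P β c := by
  obtain ⟨G, _, _, φ, hφ, hc, hs⟩ := h
  refine ⟨G, inferInstance, inferInstance, (e.permCongrHom : Perm α →* Perm β).comp φ, ?_, hc, ?_⟩
  · intro a b hab
    exact hφ (e.permCongrHom.injective hab)
  · intro hP g
    show Perm.sign (e.permCongr (φ g)) = 1
    rw [Perm.sign_permCongr, hs hP]

theorem Ex.addFin {m n c d : ℕ} (h : Ex P (Fin m) c) (h' : Ex P (Fin n) d) : Ex P (Fin (m + n)) (c * d) :=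
  (h.sum h').congr finSumFinEquiv

theorem ex_zero : Ex P (Fin 0) 1 :=
  ⟨Unit, inferInstance, inferInstance, 1, fun _ _ _ => rfl, by simp, fun _ _ => by simp⟩

theorem ex_cayley (G : Type) [CommGroup G] [Fintype G] [DecidableEq G] (n : ℕ) (hn : Fintype.card G = n)
    (hs : P → ∀ g : G, Perm.sign (MulAction.toPermHom G G g) = 1) : Ex P (Fin n) n := by
  have h : Ex P G n := ⟨G, inferInstance, inferInstance, MulAction.toPermHom G G, MulAction.toPerm_injective,
    by rw [Nat.card_eq_fintype_card, hn], hs⟩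
  exact h.congr (Fintype.equivFinOfCardEq hn)

theorem ex_three : Ex P (Fin 3) 3 :=
  ex_cayley (Multiplicative (ZMod 3)) 3 rfl (fun _ => by decide)

theorem ex_four : Ex P (Fin 4) 4 :=
  ex_cayley (Multiplicative (ZMod 2 × ZMod 2)) 4 rfl (fun _ => by decide)

theorem ex_two : Ex False (Fin 2) 2 :=
  ex_cayley (Multiplicative (ZMod 2)) 2 rfl (fun h => h.elim)

theorem ex_five : Ex P (Fin 5) 5 :=
  ex_cayley (Multiplicative (ZMod 5)) 5 rfl (fun _ => by decide)

theorem ex_three_mul (k : ℕ) : Ex P (Fin (3 * k)) (3 ^ k) := by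
  induction k with
  | zero => exact ex_zero
  | succ k ih =>
    have := ih.addFin (ex_three (P := P))
    rw [pow_succ]
    exact this

theorem Ex.perm {n c : ℕ} (h : Ex P (Fin n) c) : ∃ A : Subgroup (Perm (Fin n)), IsMulCommutative A ∧ Nat.card A = c := by
  obtain ⟨G, _, _, φ, hφ, hc, -⟩ := h
  refine ⟨φ.range, ⟨⟨?_⟩⟩, ?_⟩
  · rintro ⟨_, a, rfl⟩ ⟨_, b, rfl⟩
    apply Subtype.ext
    show φ a * φ b = φ b * φ a
    rw [← map_mul, mul_comm, map_mul]
  · rw [← hc]
    exact (Nat.card_congr (MonoidHom.ofInjective hφ).toEquiv).symm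

theorem Ex.alt {n c : ℕ} (h : Ex True (Fin n) c) : ∃ A : Subgroup (alternatingGroup (Fin n)), IsMulCommutative A ∧ Nat.card A = c := by
  obtain ⟨G, _, _, φ, hφ, hc, hs⟩ := h
  let ψ : G →* alternatingGroup (Fin n) :=
    { toFun := fun g => ⟨φ g, hs trivial g⟩
      map_one' := Subtype.ext (map_one φ)
      map_mul' := fun a b => Subtype.ext (map_mul φ a b) }
  have hψ : Function.Injective ψ := fun a b hab => hφ (congrArg Subtype.val hab)
  refine ⟨ψ.range, ⟨⟨?_⟩⟩, ?_⟩
  · rintro ⟨_, a, rfl⟩ ⟨_, b, rfl⟩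
    apply Subtype.ext
    show ψ a * ψ b = ψ b * ψ a
    rw [← map_mul, mul_comm, map_mul]
  · rw [← hc]
    exact (Nat.card_congr (MonoidHom.ofInjective hψ).toEquiv).symm

end examples

section alternating

variable {n : ℕ}

/-- the image in the symmetric group -/
def img (A : Subgroup (alternatingGroup (Fin n))) : Subgroup (Perm (Fin n)) := A.map (alternatingGroup (Fin n)).subtype

theorem card_img (A : Subgroup (alternatingGroup (Fin n))) : Nat.card (img A) = Nat.card A :=
  (Nat.card_congr (A.equivMapOfInjective _ (Subgroup.subtype_injective _)).toEquiv).symm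

theorem comm_img (A : Subgroup (alternatingGroup (Fin n))) (hA : IsMulCommutative A) : IsMulCommutative (img A) := by
  refine ⟨⟨?_⟩⟩
  rintro ⟨_, a, ha, rfl⟩ ⟨_, b, hb, rfl⟩
  apply Subtype.ext
  exact congrArg (fun x : A => ((x : alternatingGroup (Fin n)) : Perm (Fin n))) (hA.is_comm.comm ⟨a, ha⟩ ⟨b, hb⟩)

theorem even_img (A : Subgroup (alternatingGroup (Fin n))) : ∀ a ∈ img A, Perm.sign a = 1 := by
  rintro _ ⟨a, -, rfl⟩
  exact a.2

theorem mem_img (A : Subgroup (alternatingGroup (Fin n))) (a : alternatingGroup (Fin n)) : (a : Perm (Fin n)) ∈ img A ↔ a ∈ A := by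
  constructor
  · rintro ⟨b, hb, hab⟩
    have : b = a := Subtype.ext hab
    rw [← this]; exact hb
  · intro h; exact ⟨a, h, rfl⟩

theorem bound_two (A : Subgroup (alternatingGroup (Fin n))) (hA : IsMulCommutative A) [Fintype (orbitRel.Quotient (img A) (Fin n))]
    (h2 : ∃ c, size (img A) c = 2) : 2 * Nat.card A ≤ gS n := by
  have hcomm := comm_img A hA
  have hdvd := card_dvd hcomm
  have hne : Nat.card (img A) ≠ ∏ c, size (img A) c := by
    intro hfull
    obtain ⟨c, hc⟩ := h2
    exact no_two hcomm hfull (even_img A) c hc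
  have hpos : 0 < ∏ c, size (img A) c := Finset.prod_pos (fun c _ => size_pos _ c)
  obtain ⟨k, hk⟩ := hdvd
  have h3 : ∏ c, size (img A) c ≤ gS n := by
    have h4 := prod_le_gS Finset.univ (fun c => size (img A) c) (fun c _ => size_pos _ c)
    rw [sum_size, Nat.card_fin] at h4
    exact h4
  rw [← card_img A]
  have hk2 : 2 ≤ k := by
    by_contra hcon
    have : k = 0 ∨ k = 1 := by omega
    rcases this with rfl | rfl
    · omega
    · rw [mul_one] at hk; exact hne hk.symm
  calc 2 * Nat.card (img A) ≤ Nat.card (img A) * k := by rw [mul_comm]; exact Nat.mul_le_mul_left _ hk2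
    _ = _ := hk.symm
    _ ≤ gS n := h3

theorem bound_no_two (A : Subgroup (alternatingGroup (Fin n))) (hA : IsMulCommutative A) [Fintype (orbitRel.Quotient (img A) (Fin n))]
    (h2 : ∀ c, size (img A) c ≠ 2) : Nat.card A ≤ ∏ c, size (img A) c ∧ ∏ c, size (img A) c ≤ gA n := by
  have hcomm := comm_img A hA
  have hdvd := card_dvd hcomm
  have hpos : 0 < ∏ c, size (img A) c := Finset.prod_pos (fun c _ => size_pos _ c)
  have h4 := prod_le_gA Finset.univ (fun c => size (img A) c) (fun c _ => size_pos _ c) (fun c _ => h2 c)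
  rw [sum_size, Nat.card_fin] at h4
  exact ⟨by rw [← card_img A]; exact Nat.le_of_dvd hpos hdvd, h4⟩

theorem max_structure (M : ℕ) (hEx : Ex True (Fin n) M) (h2 : gS n < 2 * M) (h3 : gA n = M)
    (A : Subgroup (alternatingGroup (Fin n))) (hA : IsMulCommutative A)
    (hAmax : ∀ C : Subgroup (alternatingGroup (Fin n)), IsMulCommutative C → Nat.card C ≤ Nat.card A)
    [Fintype (orbitRel.Quotient (img A) (Fin n))] :
    Nat.card A = M ∧ ∏ c, size (img A) c = M := by
  obtain ⟨C, hC, hCM⟩ := hEx.alt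
  have h4 := hAmax C hC
  rw [hCM] at h4
  by_cases hex : ∃ c, size (img A) c = 2
  · have := bound_two A hA hex
    omega
  · push Not at hex
    obtain ⟨h5, h6⟩ := bound_no_two A hA hex
    rw [h3] at h6
    omega

theorem conj_of_max (M : ℕ) (hEx : Ex True (Fin n) M) (h1 : 5 * gS n < 6 * M) (h2 : gS n < 2 * M) (h3 : gA n = M) (hn : 3 ≤ n)
    (A B : Subgroup (alternatingGroup (Fin n))) (hA : IsMulCommutative A) (hB : IsMulCommutative B)
    (hAmax : ∀ C : Subgroup (alternatingGroup (Fin n)), IsMulCommutative C → Nat.card C ≤ Nat.card A)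
    (hBmax : ∀ C : Subgroup (alternatingGroup (Fin n)), IsMulCommutative C → Nat.card C ≤ Nat.card B) :
    ∃ g : alternatingGroup (Fin n), B = MulAut.conj g • A := by
  classical
  have := Fintype.ofFinite (orbitRel.Quotient (img A) (Fin n))
  have := Fintype.ofFinite (orbitRel.Quotient (img B) (Fin n))
  obtain ⟨hAM, hAP⟩ := max_structure M hEx h2 h3 A hA hAmax
  obtain ⟨hBM, hBP⟩ := max_structure M hEx h2 h3 B hB hBmax
  have hcA := comm_img A hA
  have hcB := comm_img B hB
  have hfA : Nat.card (img A) = ∏ c, size (img A) c := by rw [card_img, hAM, hAP]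
  have hfB : Nat.card (img B) = ∏ c, size (img B) c := by rw [card_img, hBM, hBP]
  have h34 : ∀ (C : Subgroup (Perm (Fin n))) [Fintype (orbitRel.Quotient C (Fin n))], IsMulCommutative C →
      Nat.card C = ∏ c, size C c → (∀ a ∈ C, Perm.sign a = 1) → ∏ c, size C c = M → ∀ c, size C c = 3 ∨ size C c = 4 := by
    intro C _ hC hfull heven hP c
    have h5 := no_two hC hfull heven c
    have h6 := size_pos C c
    by_contra hcon
    have h7 := prod_le_bad Finset.univ (fun c => size C c) (fun c _ => size_pos _ c) (by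
      rw [sum_size, Nat.card_fin]; omega) ⟨c, Finset.mem_univ _, by omega⟩
    rw [sum_size, Nat.card_fin, hP] at h7
    omega
  have hA34 := h34 (img A) hcA hfA (even_img A) hAP
  have hB34 := h34 (img B) hcB hfB (even_img B) hBP
  obtain ⟨s, hs⟩ := exists_match hA34 hB34 (by rw [hAP, hBP])
  -- make s even
  obtain ⟨t, hteven, ht⟩ : ∃ t : Perm (Fin n), Perm.sign t = 1 ∧ ∀ x y, cls (img A) x = cls (img A) y ↔ cls (img B) (t x) = cls (img B) (t y) := by
    rcases Int.units_eq_one_or (Perm.sign s) with h | h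
    · exact ⟨s, h, hs⟩
    · obtain ⟨x₀⟩ : Nonempty (Fin n) := ⟨⟨0, by omega⟩⟩
      obtain ⟨y₀, hy₀, hxy⟩ : ∃ y₀, cls (img A) y₀ = cls (img A) x₀ ∧ y₀ ≠ x₀ := by
        by_contra hcon
        push Not at hcon
        have h8 : size (img A) (cls (img A) x₀) ≤ 1 := by
          rw [size]
          apply Nat.card_eq_fintype_card.trans_le
          rw [Fintype.card_le_one_iff]
          rintro ⟨y, hy⟩ ⟨z, hz⟩
          apply Subtype.ext
          show y = z
          rw [hcon y hy, hcon z hz]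
        rcases hA34 (cls (img A) x₀) with h9 | h9 <;> omega
      refine ⟨s * Equiv.swap y₀ x₀, ?_, ?_⟩
      · rw [Perm.sign_mul, h, Perm.sign_swap hxy]; rfl
      · have hsw : ∀ z, cls (img A) (Equiv.swap y₀ x₀ z) = cls (img A) z := by
          intro z
          by_cases hz1 : z = y₀
          · rw [hz1, Equiv.swap_apply_left, hy₀]
          by_cases hz2 : z = x₀
          · rw [hz2, Equiv.swap_apply_right, hy₀]
          rw [Equiv.swap_apply_of_ne_of_ne hz1 hz2]
        intro x y
        rw [Perm.mul_apply, Perm.mul_apply, ← hs, hsw, hsw]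
  have hmemA := full_eq_D hcA hfA (even_img A) hA34
  have hmemB := full_eq_D hcB hfB (even_img B) hB34
  have hconj := conj_D (orbitRel (img A) (Fin n)) (orbitRel (img B) (Fin n)) t (fun x y => by
    rw [rel_iff, rel_iff]; exact ht x y)
  let g : alternatingGroup (Fin n) := ⟨t, hteven⟩
  refine ⟨g, ?_⟩
  ext b
  rw [Subgroup.mem_pointwise_smul_iff_inv_smul_mem, ← mem_img B, ← mem_img A, hmemB, hmemA, hconj]
  have h9 : t * (((MulAut.conj g)⁻¹ • b : alternatingGroup (Fin n)) : Perm (Fin n)) * t⁻¹ = (b : Perm (Fin n)) := by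
    have h10 : (((MulAut.conj g)⁻¹ • b : alternatingGroup (Fin n)) : Perm (Fin n)) = t⁻¹ * b * t := by
      rw [← map_inv, MulAut.smul_def, MulAut.conj_apply, inv_inv]
      rfl
    rw [h10]; group
  rw [h9]

end alternating

end Cfsg.Agent.Lib.AbelPerm
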