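import Mathlib

/-!
Actions by automorphisms: induced actions on quotients, and the endomorphism ring of an
invariant abelian normal subgroup (helper59).
-/

set_option autoImplicit false

namespace Cfsg.Agent.Lib.ActRep

open Subgroup

universe u v

/-- the action induced on a quotient -/
theorem exists_quot {G : Type u} {A : Type v} [Group G] [Group A] (φ : A →* MulAut G)
    (N : Subgroup G) [N.Normal] (hN : ∀ a, ∀ x ∈ N, φ a x ∈ N) :
    ∃ ψ : A →* MulAut (G ⧸ N), ∀ a (g : G), ψ a (g : G ⧸ N) = ((φ a g : G) : G ⧸ N) := by
  have hmap : ∀ a, N.map (φ a).toMonoidHom = N := by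
    intro a
    apply le_antisymm
    · rintro _ ⟨x, hx, rfl⟩
      exact hN a x hx
    · intro x hx
      refine ⟨φ a⁻¹ x, hN _ _ hx, ?_⟩
      change φ a (φ a⁻¹ x) = x
      rw [← MulAut.mul_apply, ← map_mul, mul_inv_cancel, map_one, MulAut.one_apply]
  refine ⟨{ toFun := fun a => QuotientGroup.congr N N (φ a) (hmap a), map_one' := ?_,
            map_mul' := ?_ }, ?_⟩
  · ext x
    induction x using QuotientGroup.induction_on with | H g => ?_
    change ((φ 1 g : G) : G ⧸ N) = g
    rw [map_one, MulAut.one_apply]
  · intro a b
    ext x
    induction x using QuotientGroup.induction_on with | H g => ?_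
    change ((φ (a * b) g : G) : G ⧸ N) = ((φ a (φ b g) : G) : G ⧸ N)
    rw [map_mul, MulAut.mul_apply]
  · intro a g
    rfl

/-- the endomorphism ring of an invariant abelian normal subgroup `P` as the additive group `V` -/
theorem exists_rep {G : Type u} {A : Type v} [Group G] [Group A] (φ : A →* MulAut G)
    (P : Subgroup G) [hPn : P.Normal] (hP : ∀ a, ∀ x ∈ P, φ a x ∈ P)
    (hcomm : ∀ x ∈ P, ∀ y ∈ P, x * y = y * x) :
    ∃ (V : Type u) (_ : AddCommGroup V) (ι : V ≃ P) (h : G →* AddMonoid.End V)
      (s : A →* AddMonoid.End V),
      (∀ v w, (ι (v + w) : G) = ι v * ι w) ∧ (∀ g v, (ι (h g v) : G) = g * ι v * g⁻¹) ∧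
      (∀ a v, (ι (s a v) : G) = φ a (ι v)) := by
  let _ : CommGroup P := { (inferInstance : Group P) with
    mul_comm := fun a b => Subtype.ext (hcomm a a.2 b b.2) }
  refine ⟨Additive P, inferInstance, Additive.toMul, ?_, ?_, ?_⟩
  · exact
      { toFun := fun g =>
          { toFun := fun v => Additive.ofMul ⟨g * (v.toMul : P) * g⁻¹,
              hPn.conj_mem _ (v.toMul : P).2 g⟩
            map_zero' := by
              apply congrArg Additive.ofMul
              apply Subtype.ext
              simp
            map_add' := by
              intro v w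
              apply congrArg Additive.ofMul
              apply Subtype.ext
              simp [mul_assoc] }
        map_one' := by
          ext v
          change (1 : G) * ((Additive.toMul v : P) : G) * 1⁻¹ = ((Additive.toMul v : P) : G)
          simp
        map_mul' := by
          intro a b
          ext v
          change (a * b) * ((Additive.toMul v : P) : G) * (a * b)⁻¹
            = a * (b * ((Additive.toMul v : P) : G) * b⁻¹) * a⁻¹
          simp [mul_assoc] }
  · exact
      { toFun := fun a =>
          { toFun := fun v => Additive.ofMul ⟨φ a (v.toMul : P), hP a _ (v.toMul : P).2⟩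
            map_zero' := by
              apply congrArg Additive.ofMul
              apply Subtype.ext
              simp
            map_add' := by
              intro v w
              apply congrArg Additive.ofMul
              apply Subtype.ext
              simp }
        map_one' := by
          ext v
          change φ 1 ((Additive.toMul v : P) : G) = ((Additive.toMul v : P) : G)
          simp
        map_mul' := by
          intro a b
          ext v
          change φ (a * b) ((Additive.toMul v : P) : G) = φ a (φ b ((Additive.toMul v : P) : G))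
          simp }
  · exact ⟨fun v w => rfl, fun g v => rfl, fun a v => rfl⟩

variable {G : Type u} {A : Type v} [Group G] [Group A]

/-- `exists_rep` with its standard consequences: a ring `R` of characteristic `p`. -/
theorem exists_ring_rep (φ : A →* MulAut G)
    (P : Subgroup G) [P.Normal] (hP : ∀ a, ∀ x ∈ P, φ a x ∈ P)
    (hcomm : ∀ x ∈ P, ∀ y ∈ P, x * y = y * x) (p : ℕ) (hexp : ∀ x ∈ P, x ^ p = 1) :
    ∃ (R : Type u) (_ : Ring R) (h : G →* R) (s : A →* R), (p : R) = 0 ∧
      (∀ g, h g = 1 ↔ g ∈ centralizer (P : Set G)) ∧
      (∀ a g, s a * h g = h (φ a g) * s a) ∧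
      (∀ (I : Type) [Fintype I] (f : I → A) (B : Set A),
        (∀ b ∈ B, ∃ e : I ≃ I, ∀ i, b * f i = f (e i)) →
        (∀ x ∈ P, (∀ b ∈ B, φ b x = x) → x = 1) → ∑ i, s (f i) = 0) := by
  classical
  obtain ⟨V, _, ι, h, s, hadd, hh, hs⟩ := exists_rep φ P hP hcomm
  have hι0 : (ι 0 : G) = 1 := by
    have := hadd 0 0
    rw [add_zero] at this
    exact left_eq_mul.1 this
  have hι : ∀ v w : V, (ι v : G) = ι w → v = w := fun v w hvw => ι.injective (Subtype.ext hvw)
  refine ⟨AddMonoid.End V, inferInstance, h, s, ?_, ?_, ?_, ?_⟩
  · ext v
    apply hι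
    have h1 : ∀ n : ℕ, (ι (n • v) : G) = (ι v : G) ^ n := by
      intro n
      induction n with
      | zero => simp [hι0]
      | succ n ih => rw [succ_nsmul, hadd, ih, pow_succ]
    have h2 : ((p : AddMonoid.End V)) v = p • v := by
      simp
    rw [h2, h1, hexp _ (ι v).2]
    exact hι0.symm
  · intro g
    rw [mem_centralizer_iff]
    constructor
    · intro hg x hx
      have h1 := hh g (ι.symm ⟨x, hx⟩)
      rw [hg] at h1
      simp only [AddMonoid.End.coe_one, id_eq, Equiv.apply_symm_apply] at h1
      calc x * g = g * x * g⁻¹ * g := by rw [← h1]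
        _ = g * x := by group
    · intro hg
      ext v
      apply hι
      rw [hh]
      have := hg (ι v) (ι v).2
      rw [← this]
      simp
  · intro a g
    ext v
    apply hι
    change (ι (s a (h g v)) : G) = ι (h (φ a g) (s a v))
    rw [hs, hh, hh, hs]
    simp
  · intro I _ f B hT hfix
    ext v
    apply hι
    change (ι _ : G) = ι 0
    rw [hι0]
    apply hfix _ (Subtype.mem _)
    intro b hb
    rw [← hs]
    congr 2
    have key : s b * ∑ i, s (f i) = ∑ i, s (f i) := by
      obtain ⟨e, he⟩ := hT b hb
      rw [Finset.mul_sum]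
      simp_rw [← map_mul, he]
      exact Equiv.sum_comp e (fun i => s (f i))
    exact congrArg (fun f : AddMonoid.End V => f v) key

end Cfsg.Agent.Lib.ActRep
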