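import Mathlib

/-!
The groups `K ⋊ C`, `K` a finite field and `C ≤ Kˣ`: solvable, with element orders the divisors of
`p` and of `|C|`.
-/

namespace Cfsg.Agent.Lib.AffSpec

variable {K : Type*} [Field K]

/-- the action of a subgroup of `Kˣ` on the additive group -/
def act (C : Subgroup Kˣ) : C →* MulAut (Multiplicative K) where
  toFun c :=
    { toFun := fun v => Multiplicative.ofAdd (((c : Kˣ) : K) * v.toAdd)
      invFun := fun v => Multiplicative.ofAdd ((((c : Kˣ)⁻¹ : Kˣ) : K) * v.toAdd)
      left_inv := fun v => by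
        apply Multiplicative.toAdd.injective
        show (((c : Kˣ)⁻¹ : Kˣ) : K) * (((c : Kˣ) : K) * v.toAdd) = v.toAdd
        rw [← mul_assoc, Units.inv_mul, one_mul]
      right_inv := fun v => by
        apply Multiplicative.toAdd.injective
        show (((c : Kˣ)) : K) * ((((c : Kˣ)⁻¹ : Kˣ) : K) * v.toAdd) = v.toAdd
        rw [← mul_assoc, Units.mul_inv, one_mul]
      map_mul' := fun v w => by
        apply Multiplicative.toAdd.injective
        show (((c : Kˣ)) : K) * (v.toAdd + w.toAdd) = _ * v.toAdd + _ * w.toAdd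
        rw [mul_add] }
  map_one' := by
    ext v
    apply Multiplicative.toAdd.injective
    show (((1 : C) : Kˣ) : K) * v.toAdd = v.toAdd
    rw [OneMemClass.coe_one, Units.val_one, one_mul]
  map_mul' a b := by
    ext v
    apply Multiplicative.toAdd.injective
    show ((((a * b : C) : Kˣ)) : K) * v.toAdd = ((a : Kˣ) : K) * (((b : Kˣ) : K) * v.toAdd)
    rw [Subgroup.coe_mul, Units.val_mul, mul_assoc]

/-- `K ⋊ C` -/
abbrev Aff (C : Subgroup Kˣ) := Multiplicative K ⋊[act C] C

theorem isSolvable (C : Subgroup Kˣ) : Group.IsSolvable (Aff C) := by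
  have h1 : Group.IsSolvable (Multiplicative K) := inferInstance
  have h2 : Group.IsSolvable C := inferInstance
  exact Group.isSolvable_of_ker_le_range (SemidirectProduct.inl : Multiplicative K →* Aff C)
    (SemidirectProduct.rightHom : Aff C →* C) (by rw [SemidirectProduct.range_inl_eq_ker_rightHom])

instance finite [Finite K] (C : Subgroup Kˣ) : Finite (Aff C) := by
  have : Finite (Multiplicative K) := ‹Finite K›
  exact Finite.of_equiv _ (SemidirectProduct.equivProd (φ := act C)).symm

theorem orderOf_of_right_ne_one (C : Subgroup Kˣ) (g : Aff C) (hg : g.right ≠ 1) : orderOf g = orderOf g.right := by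
  obtain ⟨v, c⟩ := g
  have hc : ((c : Kˣ) : K) ≠ 1 := by
    intro h
    apply hg
    exact Subtype.ext (Units.ext h)
  have h1 : (1 : K) - ((c : Kˣ) : K) ≠ 0 := sub_ne_zero.mpr hc.symm
  let w : Multiplicative K := Multiplicative.ofAdd (v.toAdd / (1 - ((c : Kˣ) : K)))
  have h2 : (⟨v, c⟩ : Aff C) = MulAut.conj (SemidirectProduct.inl w) (SemidirectProduct.inr c) := by
    rw [MulAut.conj_apply]
    ext
    · simp only [SemidirectProduct.mul_left, SemidirectProduct.left_inl, SemidirectProduct.left_inr,
        SemidirectProduct.right_inl, SemidirectProduct.right_inr, map_one, SemidirectProduct.mul_right,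
        SemidirectProduct.inv_left, one_mul, mul_one, inv_one, MulAut.one_apply]
      apply Multiplicative.toAdd.injective
      show v.toAdd = w.toAdd + ((c : Kˣ) : K) * (-w.toAdd)
      show v.toAdd = v.toAdd / (1 - ((c : Kˣ) : K)) + ((c : Kˣ) : K) * (-(v.toAdd / (1 - ((c : Kˣ) : K))))
      field_simp
      ring
    · simp
  rw [h2, MulEquiv.orderOf_eq, orderOf_injective _ SemidirectProduct.inr_injective]
  simp

theorem spectrum [Finite K] (p : ℕ) [Fact p.Prime] [CharP K p] (C : Subgroup Kˣ) :
    Set.range (orderOf : Aff C → ℕ) = {m : ℕ | m ∣ p ∨ m ∣ Nat.card C} := by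
  ext m
  constructor
  · rintro ⟨g, rfl⟩
    by_cases hg : g.right = 1
    · left
      have h1 : g = SemidirectProduct.inl g.left := by
        ext
        · simp
        · simp [hg]
      rw [h1, orderOf_injective _ SemidirectProduct.inl_injective, orderOf_dvd_iff_pow_eq_one]
      apply Multiplicative.toAdd.injective
      show p • g.left.toAdd = 0
      rw [nsmul_eq_mul, CharP.cast_eq_zero, zero_mul]
    · right
      rw [orderOf_of_right_ne_one C g hg]
      exact orderOf_dvd_natCard _
  · rintro (h | h)
    · rcases (Nat.dvd_prime Fact.out).mp h with rfl | rfl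
      · exact ⟨1, orderOf_one⟩
      · refine ⟨SemidirectProduct.inl (Multiplicative.ofAdd 1), ?_⟩
        rw [orderOf_injective _ SemidirectProduct.inl_injective]
        apply orderOf_eq_prime
        · apply Multiplicative.toAdd.injective
          show m • (1 : K) = 0
          rw [nsmul_eq_mul, CharP.cast_eq_zero, zero_mul]
        · intro h1
          exact one_ne_zero (congrArg Multiplicative.toAdd h1 : (1 : K) = 0)
    · have hcyc : IsCyclic C := inferInstance
      obtain ⟨c, hc⟩ := IsCyclic.exists_ofOrder_eq_natCard (α := C)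
      obtain ⟨k, hk⟩ := h
      have hpos : 0 < Nat.card C := Nat.card_pos
      have hk0 : k ≠ 0 := by
        rintro rfl
        rw [mul_zero] at hk
        omega
      refine ⟨SemidirectProduct.inr (c ^ k), ?_⟩
      rw [orderOf_injective _ SemidirectProduct.inr_injective, orderOf_pow_of_dvd hk0 (by rw [hc, hk]; exact Dvd.intro_left _ rfl),
        hc, hk, Nat.mul_div_cancel _ (Nat.pos_of_ne_zero hk0)]

/-- a finite field of order `q` has a subgroup of `Kˣ` of each order dividing `q - 1` -/
theorem exists_subgroup [Finite K] (s : ℕ) (hs : s ∣ Nat.card K - 1) : ∃ C : Subgroup Kˣ, Nat.card C = s := by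
  have := Fintype.ofFinite K
  have hcyc : IsCyclic Kˣ := inferInstance
  obtain ⟨c, hc⟩ := IsCyclic.exists_ofOrder_eq_natCard (α := Kˣ)
  have h1 : Nat.card Kˣ = Nat.card K - 1 := Nat.card_units K
  rw [← h1] at hs
  obtain ⟨k, hk⟩ := hs
  have hpos : 0 < Nat.card Kˣ := Nat.card_pos
  have hk0 : k ≠ 0 := by
    rintro rfl
    rw [mul_zero] at hk
    omega
  refine ⟨Subgroup.zpowers (c ^ k), ?_⟩
  rw [Nat.card_zpowers, orderOf_pow_of_dvd hk0 (by rw [hc, hk]; exact Dvd.intro_left _ rfl), hc, hk,
    Nat.mul_div_cancel _ (Nat.pos_of_ne_zero hk0)]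

end Cfsg.Agent.Lib.AffSpec
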