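import Mathlib
import Cfsg.Agent.Lib.SpSpec67

/-!
(helper67) Orders of affine isometries in the eight-dimensional orthogonal space of minus type, characteristic two.
-/

set_option autoImplicit false
set_option linter.unusedSectionVars false

namespace Cfsg.Agent.Lib.AffSpec67

open QuadraticMap Module Cfsg.Agent.Lib.Quad Cfsg.Agent.Lib.HermAlg Cfsg.Agent.Lib.SpBound67 Cfsg.Agent.Lib.SpSpec67

universe u v w

section ring

variable {R : Type u} [Ring R]

theorem geom_mul_fix (P X : R) (h : P * X = X) (n : ℕ) : (∑ j ∈ Finset.range n, P ^ j) * X = n • X := by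
  have h1 : ∀ j, P ^ j * X = X := by
    intro j
    induction j with
    | zero => rw [pow_zero, one_mul]
    | succ j ih => rw [pow_succ, mul_assoc, h, ih]
  rw [Finset.sum_mul, Finset.sum_congr rfl (fun j _ => h1 j), Finset.sum_const, Finset.card_range]

theorem mul_geom_fix {P : R} {n : ℕ} (h : P ^ n = 1) : P * (∑ j ∈ Finset.range n, P ^ j) = ∑ j ∈ Finset.range n, P ^ j := by
  have h1 := mul_geom_sum P n
  rw [h, sub_self, sub_mul, one_mul, sub_eq_zero] at h1
  exact h1

end ring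

section chain

variable {F : Type u} [Field F] {V : Type v} [AddCommGroup V] [Module F V] [FiniteDimensional F V]

theorem ker_step (g : Module.End F V) {n : ℕ} (hn : LinearMap.ker (g ^ n) ≠ LinearMap.ker (g ^ (n + 1))) {i : ℕ} (hi : i ≤ n) :
    finrank F (LinearMap.ker (g ^ i)) + 1 ≤ finrank F (LinearMap.ker (g ^ (i + 1))) := by
  have hle : LinearMap.ker (g ^ i) ≤ LinearMap.ker (g ^ (i + 1)) := by
    intro x hx
    rw [LinearMap.mem_ker] at hx ⊢
    rw [pow_succ', Module.End.mul_apply, hx, map_zero]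
  have hne : LinearMap.ker (g ^ i) ≠ LinearMap.ker (g ^ (i + 1)) := by
    intro h
    apply hn
    have h1 := Module.End.ker_pow_constant h
    have h2 := h1 (n - i)
    have h3 := h1 (n + 1 - i)
    rw [Nat.add_sub_cancel' hi] at h2
    rw [Nat.add_sub_cancel' (by omega)] at h3
    rw [← h2, ← h3]
  exact Submodule.finrank_lt_finrank_of_lt (lt_of_le_of_ne hle hne)

theorem ker_bound (g : Module.End F V) {n : ℕ} (hn : LinearMap.ker (g ^ n) ≠ LinearMap.ker (g ^ (n + 1))) {i : ℕ} (hi : i ≤ n) :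
    finrank F (LinearMap.ker g) + i ≤ finrank F (LinearMap.ker (g ^ (i + 1))) := by
  induction i with
  | zero => rw [add_zero, zero_add, pow_one]
  | succ i ih =>
    have h1 := ih (by omega)
    have h2 := ker_step g hn (i := i + 1) (by omega)
    omega

end chain

section main

variable {F : Type u} [Field F] [Finite F] [CharP F 2] {V : Type v} [AddCommGroup V] [Module F V] [FiniteDimensional F V]
  {Q : QuadraticForm F V}

variable (F) in
theorem two_nsmul' {A : Type w} [AddCommGroup A] [Module F A] (x : A) : (2 : ℕ) • x = 0 := by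
  rw [← Nat.cast_smul_eq_nsmul F]
  have : ((2 : ℕ) : F) = 0 := CharP.cast_eq_zero F 2
  rw [this, zero_smul]

variable (F) in
theorem odd_nsmul {A : Type w} [AddCommGroup A] [Module F A] {n : ℕ} (hn : Odd n) (x : A) : n • x = x := by
  obtain ⟨c, rfl⟩ := hn
  rw [add_smul, one_smul, mul_comm, mul_smul, smul_comm, two_nsmul' F, zero_add]

open Polynomial in
theorem sum_factor (T : Module.End F V) (e m : ℕ) :
    ∑ i ∈ Finset.range (2 ^ e * m), T ^ i = (T - 1) ^ (2 ^ e - 1) * ∑ j ∈ Finset.range m, (T ^ 2 ^ e) ^ j := by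
  have hp : Fact (Nat.Prime 2) := ⟨Nat.prime_two⟩
  have h1 : ∑ i ∈ Finset.range (2 ^ e * m), (X : F[X]) ^ i = (X - 1) ^ (2 ^ e - 1) * ∑ j ∈ Finset.range m, (X ^ 2 ^ e) ^ j := by
    have hX : (X - 1 : F[X]) ≠ 0 := by
      have := X_sub_C_ne_zero (1 : F)
      rwa [C_1] at this
    apply mul_left_cancel₀ hX
    rw [mul_geom_sum, ← mul_assoc, ← pow_succ', Nat.sub_add_cancel Nat.one_le_two_pow, sub_pow_char_pow, one_pow, mul_geom_sum, pow_mul]
  have h2 := congrArg (aeval T) h1
  simpa only [map_sum, map_mul, map_pow, aeval_X, map_sub, map_one] using h2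

open Polynomial in
theorem sub_one_pow (T : Module.End F V) (e : ℕ) : (T - 1) ^ (2 ^ e) = T ^ (2 ^ e) - 1 := by
  have hp : Fact (Nat.Prime 2) := ⟨Nat.prime_two⟩
  have h1 : (X - 1 : F[X]) ^ (2 ^ e) = X ^ (2 ^ e) - 1 := by rw [sub_pow_char_pow, one_pow]
  have h2 := congrArg (aeval T) h1
  simpa only [map_pow, aeval_X, map_sub, map_one] using h2

/-- combinatorics of the final step -/
theorem comb {q D e m' : ℕ} {N' : ℕ} (hD : D + 2 * N' = 8) (hDe : 2 ^ e < D) (hm : Odd m')
    (hM : N' = 0 ∧ m' = 1 ∨ 1 ≤ N' ∧ ∃ M', L q N' M' ∧ m' ∣ M') : ∃ s ∈ LL 4, 2 * (2 ^ e * m') ∣ val q s := by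
  have key : ∀ {f : ℕ} {M : ℕ}, e + 1 ≤ f → 2 ^ f ∣ M → m' ∣ M → 2 * (2 ^ e * m') ∣ M := by
    intro f M hf h1 h2
    rw [← mul_assoc, ← pow_succ']
    exact (mul_dvd_mul_right (pow_dvd_pow 2 hf) m').trans
      ((OReal67.cop2 hm f).symm.mul_dvd_of_dvd_of_dvd h1 h2)
  have he : ∀ {k}, 2 ^ e < 2 ^ k → e + 1 ≤ k := fun h => (Nat.pow_lt_pow_iff_right (by norm_num)).1 h
  rcases hM with ⟨hN, rfl⟩ | ⟨hN, M', hM', hd⟩
  · refine ⟨![3,1,0,0,0,0,0], by decide, key (f := 3) (he (by omega)) ?_ (one_dvd _)⟩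
    rw [val_eq]; simp
  · have hN3 : N' ≤ 3 := by
      have : 0 < 2 ^ e := by positivity
      omega
    interval_cases N'
    · obtain ⟨M, ⟨s, hs, rfl⟩, h1, h2⟩ := split_of (q := q) sp31 _ ⟨![3,0,0,0,0,0,0], by decide, rfl⟩ M' hM'
      refine ⟨s, hs, key (f := 3) (he (by omega)) ?_ (hd.trans h2)⟩
      rw [val_eq] at h1; simpa using h1
    · obtain ⟨M, ⟨s, hs, rfl⟩, h1, h2⟩ := split_of (q := q) sp22 _ ⟨![2,0,0,0,0,0,0], by decide, rfl⟩ M' hM'
      refine ⟨s, hs, key (f := 2) (he (by omega)) ?_ (hd.trans h2)⟩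
      rw [val_eq] at h1; simpa using h1
    · obtain ⟨M, ⟨s, hs, rfl⟩, h1, h2⟩ := split_of (q := q) sp13 _ ⟨![1,0,0,0,0,0,0], by decide, rfl⟩ M' hM'
      refine ⟨s, hs, key (f := 1) (he (by omega)) ?_ (hd.trans h2)⟩
      rw [val_eq] at h1; simpa using h1

/-- the affine bound, in the endomorphism ring -/
theorem aff_bound {B : V → V → F} (hV : finrank F V = 8) (hB : IsHerm (RingHom.id F) (-1) B) (halt : ∀ x, B x x = 0)
    (T : Module.End F V) (hT : ∀ x y, B (T x) (T y) = B x y) {m : ℕ} (hm : 0 < m) (hTm : ∀ k, T ^ k = 1 ↔ m ∣ k)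
    (hpar : finrank F (LinearMap.ker (T - 1)) ≠ 1)
    (hN : ∑ i ∈ Finset.range m, T ^ i ≠ 0) : ∃ s ∈ LL 4, 2 * m ∣ val (Nat.card F) s := by
  classical
  have hTm1 : T ^ m = 1 := (hTm m).2 dvd_rfl
  have hTm1' : T ^ (m - 1 + 1) = 1 := by rw [Nat.sub_add_cancel hm]; exact hTm1
  obtain ⟨e, m', hm', rfl⟩ := Nat.exists_eq_two_pow_mul_odd hm.ne'
  set P : Module.End F V := T ^ 2 ^ e with hP
  have hPm : P ^ m' = 1 := by rw [hP, ← pow_mul, hTm1]
  set E : Module.End F V := ∑ j ∈ Finset.range m', P ^ j with hE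
  have hPE : P * E = E := mul_geom_fix hPm
  have hEE : E * E = E := by
    conv_lhs => rw [hE]
    rw [← hE, geom_mul_fix P E hPE, odd_nsmul F hm']
  have hTE : Commute E T := by
    rw [hE]
    apply Commute.sum_left
    intro j _
    exact ((Commute.refl T).pow_left _).pow_left _
  -- self adjointness
  have hPiso : ∀ x y, B (P x) (P y) = B x y := isom_pow hT _
  have hm'0 : 0 < m' := hm'.pos
  have hPm2 : P ^ (m' - 1 + 1) = 1 := by rw [Nat.sub_add_cancel hm'0]; exact hPm
  set Pi : Module.End F V := P ^ (m' - 1) with hPi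
  have hadjP : ∀ x y, B (P x) y = B x (Pi y) := inv_adj hPiso hPm2
  have hPPi : P * Pi = 1 := by rw [hPi, ← pow_succ', hPm2]
  have hPim : Pi ^ m' = 1 := by rw [hPi, ← pow_mul, mul_comm, pow_mul, hPm, one_pow]
  set E' : Module.End F V := ∑ j ∈ Finset.range m', Pi ^ j with hE'
  have hadjE : ∀ x y, B (E x) y = B x (E' y) := by
    intro x y
    have hBl : ∀ (s : Finset ℕ) (f : ℕ → V), B (∑ j ∈ s, f j) y = ∑ j ∈ s, B (f j) y := by
      intro s f
      induction s using Finset.induction_on with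
      | empty => rw [Finset.sum_empty, Finset.sum_empty, hB.zero_left]
      | insert a s ha ih => rw [Finset.sum_insert ha, Finset.sum_insert ha, hB.add_left, ih]
    have hBr : ∀ (s : Finset ℕ) (f : ℕ → V), B x (∑ j ∈ s, f j) = ∑ j ∈ s, B x (f j) := by
      intro s f
      induction s using Finset.induction_on with
      | empty => rw [Finset.sum_empty, Finset.sum_empty, hB.zero_right]
      | insert a s ha ih => rw [Finset.sum_insert ha, Finset.sum_insert ha, hB.add_right, ih]
    rw [hE, hE', LinearMap.sum_apply, LinearMap.sum_apply, hBl, hBr]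
    exact Finset.sum_congr rfl fun j _ => IsHerm.adj_pow hadjP j x y
  have hEE' : E' = E := by
    have h1 : Pi * E = E := by
      have : Commute P Pi := (Commute.refl P).pow_right _
      calc Pi * E = Pi * (P * E) := by rw [hPE]
        _ = E := by rw [← mul_assoc, ← this.eq, hPPi, one_mul]
    have h2 : E' * E = E := by
      conv_lhs => rw [hE']
      rw [geom_mul_fix Pi E h1, odd_nsmul F hm']
    have h3 : Pi * E' = E' := mul_geom_fix hPim
    have h4 : P * E' = E' := by
      calc P * E' = P * (Pi * E') := by rw [h3]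
        _ = E' := by rw [← mul_assoc, hPPi, one_mul]
    have h5 : E * E' = E' := by
      conv_lhs => rw [hE]
      rw [geom_mul_fix P E' h4, odd_nsmul F hm']
    have h6 : Commute E E' := by
      rw [hE']
      apply Commute.sum_right
      intro j _
      rw [hPi, hP]
      exact ((hTE.pow_right _).pow_right _).pow_right _
    rw [← h5, h6.eq, h2]
  rw [hEE'] at hadjE
  -- the complement
  set E₂ : Module.End F V := 1 - E with hE₂
  have hEE₂ : E₂ * E₂ = E₂ := by
    rw [hE₂, sub_mul, one_mul, mul_sub, mul_one, hEE, sub_self, sub_zero]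
  have hTE₂ : E₂ * T = T * E₂ := by rw [hE₂, sub_mul, mul_sub, one_mul, mul_one, hTE.eq]
  have hadj₂ : ∀ x y, B (E₂ x) y = B x (E₂ y) := by
    intro x y
    rw [hE₂, LinearMap.sub_apply, LinearMap.sub_apply, hB.sub_left, hB.sub_right, hadjE]; rfl
  obtain ⟨N₁, hN₁⟩ := alt_even (restr_herm hB halt hEE hadjE) (fun x => halt _)
  obtain ⟨N₂, hN₂⟩ := alt_even (restr_herm hB halt hEE₂ hadj₂) (fun x => halt _)
  have hker : LinearMap.range E₂ = LinearMap.ker E := by
    ext x
    rw [LinearMap.mem_ker, LinearMap.mem_range]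
    constructor
    · rintro ⟨y, rfl⟩
      rw [← Module.End.mul_apply, hE₂, mul_sub, mul_one, hEE, sub_self]; rfl
    · intro h
      exact ⟨x, by rw [hE₂, LinearMap.sub_apply, h, sub_zero]; rfl⟩
  have hsum := LinearMap.finrank_range_add_finrank_ker E
  rw [← hker, hN₁, hN₂, hV] at hsum
  -- the kernel filtration
  set g : Module.End F V := T - 1 with hg
  have hgP : g ^ (2 ^ e) = P - 1 := sub_one_pow (F := F) T e
  have hkerE : LinearMap.ker (g ^ 2 ^ e) = LinearMap.range E := by
    rw [hgP]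
    ext x
    rw [LinearMap.mem_ker, LinearMap.sub_apply, sub_eq_zero, LinearMap.mem_range]
    constructor
    · intro h
      refine ⟨x, ?_⟩
      have h1 : ∀ j, (P ^ j) x = x := by
        intro j
        induction j with
        | zero => rfl
        | succ j ih => rw [pow_succ, Module.End.mul_apply, h]; exact ih
      rw [hE, LinearMap.sum_apply, Finset.sum_congr rfl (fun j _ => h1 j), Finset.sum_const, Finset.card_range, odd_nsmul F hm']
    · rintro ⟨y, rfl⟩
      rw [← Module.End.mul_apply, hPE]; rfl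
  have h2e : 0 < 2 ^ e := by positivity
  have hne : LinearMap.ker (g ^ (2 ^ e - 1)) ≠ LinearMap.ker (g ^ (2 ^ e - 1 + 1)) := by
    intro h
    apply hN
    rw [sum_factor (F := F)]
    ext1 x
    rw [Module.End.mul_apply, LinearMap.zero_apply, ← LinearMap.mem_ker]
    change E x ∈ LinearMap.ker (g ^ (2 ^ e - 1))
    rw [h, Nat.sub_add_cancel h2e, hkerE]
    exact ⟨x, rfl⟩
  have hbnd := ker_bound g hne le_rfl
  have hpos := ker_step g hne (i := 0) (by omega)
  rw [Nat.sub_add_cancel h2e, hkerE, hN₁] at hbnd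
  rw [zero_add, pow_one] at hpos
  have hlt : 2 ^ e < N₁ + N₁ := by omega
  apply comb (D := N₁ + N₁) (N' := N₂) (by omega) hlt hm'
  rcases Nat.eq_zero_or_pos N₂ with h0 | h0
  · left
    refine ⟨h0, ?_⟩
    have h1 : E₂ = 0 := by
      rw [← LinearMap.range_eq_bot]
      apply Submodule.finrank_eq_zero.1
      rw [hN₂, h0]
    have h2 : E = 1 := by rw [hE₂, sub_eq_zero] at h1; exact h1.symm
    have h3 : P = 1 := by rw [h2, mul_one] at hPE; exact hPE
    have h4 := (hTm (2 ^ e)).1 h3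
    have h5 : 2 ^ e * m' ≤ 2 ^ e * 1 := by rw [mul_one]; exact Nat.le_of_dvd h2e h4
    have h6 := Nat.le_of_mul_le_mul_left h5 h2e
    omega
  · right
    refine ⟨h0, ?_⟩
    have hN₂3 : N₂ ≤ 3 := by omega
    have hbd : Bd.{u, v} F N₂ (L (Nat.card F) N₂) := by
      interval_cases N₂
      · exact bd1 F
      · exact bd2 F
      · exact bd3 F
    obtain ⟨M', hM', h1⟩ := restr hB halt hT hTm1' hEE₂ hTE₂ hadj₂ (by rw [hN₂]; ring) hbd
    refine ⟨M', hM', ?_⟩
    have h2 : T ^ (2 ^ e * M') = 1 := by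
      have h3 : T ^ (2 ^ e * M') * E₂ = E₂ := pow_mul_eq_of_dvd h1 (dvd_mul_left _ _)
      have h4 : T ^ (2 ^ e * M') * E = E := pow_mul_eq_of_dvd hPE (dvd_mul_right _ _)
      calc T ^ (2 ^ e * M') = T ^ (2 ^ e * M') * (E + E₂) := by rw [hE₂, add_sub_cancel, mul_one]
        _ = E + E₂ := by rw [mul_add, h3, h4]
        _ = 1 := by rw [hE₂, add_sub_cancel]
    exact Nat.dvd_of_mul_dvd_mul_left h2e ((hTm _).1 h2)

end main

end Cfsg.Agent.Lib.AffSpec67
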