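import Mathlib
import Cfsg.Agent.Lib.SymAltSq
import Cfsg.Agent.Lib.CharCentral

/-!
# The algebra trick, part A: orthogonal models (helper7)
-/

set_option autoImplicit false
set_option linter.all false

namespace Cfsg.Agent.Lib.AlgTrick

open Cfsg Cfsg.Agent.Lib.CharBasic Cfsg.Agent.Lib.FrobSchur Cfsg.Agent.Lib.SymAltSq Cfsg.Agent.Lib.CharCentral
open Matrix

universe u v

theorem quad_apply {n : ℕ} (B : Matrix (Fin n) (Fin n) ℂ) (v : Fin n → ℂ) :
    B.toQuadraticForm' v = v ⬝ᵥ (B *ᵥ v) := by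
  show (Matrix.toLinearMap₂' ℂ B) v v = _
  rw [Matrix.toLinearMap₂'_apply']

theorem sep_of_inv {n : ℕ} (B : Matrix (Fin n) (Fin n) ℂ) (hs : Bᵀ = B) (hB : ∀ v, B *ᵥ v = 0 → v = 0) :
    (QuadraticMap.associated (R := ℂ) B.toQuadraticForm').SeparatingLeft := by
  intro v hv
  apply hB
  have h1 : ∀ w, w ⬝ᵥ (B *ᵥ v) = 0 := by
    intro w
    have h2 := hv w
    rw [QuadraticMap.associated_apply, quad_apply, quad_apply, quad_apply] at h2
    have h3 : v ⬝ᵥ (B *ᵥ w) = w ⬝ᵥ (B *ᵥ v) := by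
      rw [dotProduct_mulVec, ← mulVec_transpose, hs, dotProduct_comm]
    simp only [mulVec_add, add_dotProduct, dotProduct_add, h3] at h2
    have h4 : (⅟2 : Module.End ℂ ℂ) • (v ⬝ᵥ (B *ᵥ v) + w ⬝ᵥ (B *ᵥ v) + (w ⬝ᵥ (B *ᵥ v) + w ⬝ᵥ (B *ᵥ w)) - v ⬝ᵥ (B *ᵥ v) - w ⬝ᵥ (B *ᵥ w)) =
      w ⬝ᵥ (B *ᵥ v) := by
      rw [Module.End.smul_def, QuadraticMap.half_moduleEnd_apply_eq_half_smul, smul_eq_mul]
      have : (⅟2 : ℂ) = 1 / 2 := by rw [invOf_eq_inv]; norm_num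
      rw [this]; ring
    rw [← h4, h2]
  ext i
  have := h1 (Pi.single i 1)
  rw [single_one_dotProduct] at this
  exact this

theorem exists_PPt {n : ℕ} (B : Matrix (Fin n) (Fin n) ℂ) (hs : Bᵀ = B) (hB : ∀ v, B *ᵥ v = 0 → v = 0) :
    ∃ E : Matrix (Fin n) (Fin n) ℂ, B = Eᵀ * E := by
  obtain ⟨e⟩ := QuadraticForm.equivalent_of_isAlgClosed B.toQuadraticForm' (1 : Matrix (Fin n) (Fin n) ℂ).toQuadraticForm'
    (sep_of_inv B hs hB) (sep_of_inv 1 (transpose_one) (fun v hv => by rwa [one_mulVec] at hv))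
  obtain ⟨E, hE⟩ : ∃ E : Matrix (Fin n) (Fin n) ℂ, ∀ v, E *ᵥ v = e v := by
    refine ⟨LinearMap.toMatrix' (e.toLinearEquiv : (Fin n → ℂ) →ₗ[ℂ] (Fin n → ℂ)), fun v => ?_⟩
    rw [LinearMap.toMatrix'_mulVec]; rfl
  have hq : ∀ v, (E *ᵥ v) ⬝ᵥ (E *ᵥ v) = v ⬝ᵥ (B *ᵥ v) := by
    intro v
    have h1 := e.map_app v
    rw [quad_apply, quad_apply, one_mulVec] at h1
    rw [hE]; exact h1
  have hb : ∀ v w, v ⬝ᵥ (B *ᵥ w) = (E *ᵥ v) ⬝ᵥ (E *ᵥ w) := by
    intro v w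
    have h3 : w ⬝ᵥ (B *ᵥ v) = v ⬝ᵥ (B *ᵥ w) := by
      rw [dotProduct_mulVec, ← mulVec_transpose, hs, dotProduct_comm]
    have h4 := hq (v + w)
    have h5 := hq v
    have h6 := hq w
    simp only [mulVec_add, add_dotProduct, dotProduct_add] at h4
    rw [dotProduct_comm (E *ᵥ w) (E *ᵥ v), h3] at h4
    linear_combination (-1/2) * h4 + (1/2) * h5 + (1/2) * h6
  refine ⟨E, ?_⟩
  ext i j
  have h := hb (Pi.single i 1) (Pi.single j 1)
  rw [single_one_dotProduct, mulVec_single_one, mulVec_single_one, mulVec_single_one] at h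
  rw [mul_apply]
  exact h

variable {G : Type u} [Group G]

theorem exists_orth {n : ℕ} (ρ : Representation ℂ G (Fin n → ℂ)) [Fintype G] (hρ : ρ.IsIrreducible) (h : fsInd ρ.character = 1) :
    ∃ A : G →* Matrix (Fin n) (Fin n) ℂ, (∀ g, A g * (A g)ᵀ = 1) ∧ (∀ g, (A g).trace = ρ.character g) ∧
      (∀ U : Submodule ℂ (Fin n → ℂ), (∀ g, ∀ v ∈ U, A g *ᵥ v ∈ U) → U = ⊥ ∨ U = ⊤) := by
  rcases trichotomy ρ hρ with ⟨h0, -⟩ | ⟨ε, hε, h0, -, B, hB0, hBinv, hBt, -⟩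
  · rw [h] at h0; exact absurd h0 one_ne_zero
  rw [h] at h0
  rw [← h0, one_smul] at hBt
  have hirr : ∀ U : Submodule ℂ (Fin n → ℂ), (∀ g, ∀ v ∈ U, matRep ρ g *ᵥ v ∈ U) → U = ⊥ ∨ U = ⊤ := by
    intro U hU
    let S : Subrepresentation ρ := ⟨U, by
      intro g v hv
      have := hU g v hv
      rw [matRep_apply, LinearMap.toMatrix'_mulVec] at this
      exact this⟩
    have : IsSimpleOrder (Subrepresentation ρ) := hρ
    rcases eq_bot_or_eq_top S with e | e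
    · left
      have := congrArg Subrepresentation.toSubmodule e
      exact this
    · right
      have := congrArg Subrepresentation.toSubmodule e
      exact this
  have hinv : ∀ g, matRep ρ g * matRep ρ g⁻¹ = 1 := by
    intro g; rw [← map_mul, mul_inv_cancel, map_one]
  have hker : ∀ v, B *ᵥ v = 0 → v = 0 := by
    have h1 := hirr (LinearMap.range (B.mulVecLin)) (by
      rintro g _ ⟨v, rfl⟩
      refine ⟨(matRep ρ g⁻¹)ᵀ *ᵥ v, ?_⟩
      rw [mulVecLin_apply, mulVecLin_apply, mulVec_mulVec, mulVec_mulVec]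
      congr 1
      have h2 := hBinv g
      calc B * (matRep ρ g⁻¹)ᵀ = (matRep ρ g * B * (matRep ρ g)ᵀ) * (matRep ρ g⁻¹)ᵀ := by rw [h2]
        _ = matRep ρ g * B * (matRep ρ g⁻¹ * matRep ρ g)ᵀ := by rw [transpose_mul, Matrix.mul_assoc]
        _ = matRep ρ g * B := by rw [← map_mul, inv_mul_cancel, map_one, transpose_one, Matrix.mul_one])
    rcases h1 with h1 | h1
    · exfalso
      apply hB0
      rw [LinearMap.range_eq_bot] at h1
      ext i j
      have := congrFun (LinearMap.congr_fun h1 (Pi.single j 1)) i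
      rw [mulVecLin_apply, mulVec_single_one] at this
      exact this
    · intro v hv
      have h2 : Function.Surjective B.mulVecLin := LinearMap.range_eq_top.1 h1
      have h3 := LinearMap.injective_iff_surjective.2 h2
      exact h3 (by rw [mulVecLin_apply, hv, map_zero])
  obtain ⟨E, hE⟩ := exists_PPt B hBt hker
  -- inverse of E
  have hEi : IsUnit E := by
    rw [← Matrix.mulVec_injective_iff_isUnit]
    intro v w hvw
    have : B *ᵥ (v - w) = 0 := by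
      rw [hE, ← mulVec_mulVec, mulVec_sub, hvw, sub_self, mulVec_zero]
    exact sub_eq_zero.1 (hker _ this)
  obtain ⟨F, hF1, hF2⟩ : ∃ F : Matrix (Fin n) (Fin n) ℂ, E * F = 1 ∧ F * E = 1 := by
    obtain ⟨u, rfl⟩ := hEi
    exact ⟨↑u⁻¹, u.mul_inv, u.inv_mul⟩
  have hT1 : Fᵀ * Eᵀ = 1 := by rw [← transpose_mul, hF1, transpose_one]
  have hT2 : Eᵀ * Fᵀ = 1 := by rw [← transpose_mul, hF2, transpose_one]
  refine ⟨{ toFun := fun g => Fᵀ * matRep ρ g * Eᵀ, map_one' := ?_, map_mul' := ?_ }, ?_, ?_, ?_⟩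
  · rw [map_one, Matrix.mul_one, hT1]
  · intro g k
    rw [map_mul]
    calc Fᵀ * (matRep ρ g * matRep ρ k) * Eᵀ = Fᵀ * matRep ρ g * 1 * matRep ρ k * Eᵀ := by simp only [Matrix.mul_assoc, Matrix.one_mul]
      _ = Fᵀ * matRep ρ g * Eᵀ * (Fᵀ * matRep ρ k * Eᵀ) := by rw [← hT2]; simp only [Matrix.mul_assoc]
  · intro g
    show (Fᵀ * matRep ρ g * Eᵀ) * (Fᵀ * matRep ρ g * Eᵀ)ᵀ = 1
    rw [transpose_mul, transpose_mul, transpose_transpose, transpose_transpose]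
    calc Fᵀ * matRep ρ g * Eᵀ * (E * ((matRep ρ g)ᵀ * F)) = Fᵀ * (matRep ρ g * (Eᵀ * E) * (matRep ρ g)ᵀ) * F := by simp only [Matrix.mul_assoc]
      _ = Fᵀ * B * F := by rw [← hE, hBinv]
      _ = (Fᵀ * Eᵀ) * (E * F) := by rw [hE]; simp only [Matrix.mul_assoc]
      _ = 1 := by rw [hT1, hF1, Matrix.one_mul]
  · intro g
    show (Fᵀ * matRep ρ g * Eᵀ).trace = _
    rw [trace_mul_comm, ← Matrix.mul_assoc, hT2, Matrix.one_mul, trace_matRep]
  · intro U hU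
    have h1 := hirr (U.map (Eᵀ).mulVecLin) (by
      rintro g _ ⟨v, hv, rfl⟩
      refine ⟨(Fᵀ * matRep ρ g * Eᵀ) *ᵥ v, hU g v hv, ?_⟩
      rw [mulVecLin_apply, mulVecLin_apply, mulVec_mulVec, mulVec_mulVec]
      congr 1
      calc Eᵀ * (Fᵀ * matRep ρ g * Eᵀ) = (Eᵀ * Fᵀ) * matRep ρ g * Eᵀ := by simp only [Matrix.mul_assoc]
        _ = _ := by rw [hT2, Matrix.one_mul])
    have hinj : Function.Injective (Eᵀ).mulVecLin := by
      intro v w hvw
      rw [mulVecLin_apply, mulVecLin_apply] at hvw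
      have := congrArg (fun z => Fᵀ *ᵥ z) hvw
      simp only [mulVec_mulVec, hT1, one_mulVec] at this
      exact this
    rcases h1 with h1 | h1
    · left
      rw [eq_bot_iff]
      intro v hv
      have : (Eᵀ).mulVecLin v ∈ U.map (Eᵀ).mulVecLin := ⟨v, hv, rfl⟩
      rw [h1, Submodule.mem_bot] at this
      exact hinj (by rw [this, map_zero])
    · right
      rw [eq_top_iff]
      intro v _
      have : (Eᵀ).mulVecLin v ∈ U.map (Eᵀ).mulVecLin := by rw [h1]; trivial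
      obtain ⟨w, hw, e⟩ := this
      rw [← hinj e]; exact hw

end Cfsg.Agent.Lib.AlgTrick
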