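import Mathlib
import Cfsg.Agent.Lib.Simplex
import Cfsg.Agent.Lib.AlgTrickA

/-!
# The algebra trick, part B: invariant tensors (helper7)
-/

set_option autoImplicit false
set_option linter.all false

namespace Cfsg.Agent.Lib.AlgTrick

open Cfsg Cfsg.Agent.Lib.CharBasic Cfsg.Agent.Lib.Simplex Cfsg.Agent.Lib.FrobSchur
open Matrix
open scoped Kronecker

universe u v

section act

variable {I J : Type} [Fintype I] [Fintype J] [DecidableEq I] [DecidableEq J]

/-- `N ↦ X N Yᵀ` -/
noncomputable def act (X : Matrix I I ℂ) (Y : Matrix J J ℂ) : Module.End ℂ (Matrix I J ℂ) where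
  toFun N := X * N * Yᵀ
  map_add' A B := by rw [Matrix.mul_add, Matrix.add_mul]
  map_smul' c A := by simp

theorem act_apply (X : Matrix I I ℂ) (Y : Matrix J J ℂ) (N : Matrix I J ℂ) : act X Y N = X * N * Yᵀ := rfl

theorem act_mul (X X' : Matrix I I ℂ) (Y Y' : Matrix J J ℂ) : act X Y * act X' Y' = act (X * X') (Y * Y') := by
  apply LinearMap.ext
  intro N
  show act X Y (act X' Y' N) = _
  rw [act_apply, act_apply, act_apply, transpose_mul]
  simp only [Matrix.mul_assoc]

theorem trace_act (X : Matrix I I ℂ) (Y : Matrix J J ℂ) : LinearMap.trace ℂ _ (act X Y) = X.trace * Y.trace := by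
  rw [LinearMap.trace_eq_matrix_trace ℂ (Matrix.stdBasis ℂ I J) (act X Y), Matrix.trace, Fintype.sum_prod_type, Matrix.trace,
    Matrix.trace, Finset.sum_mul]
  refine Finset.sum_congr rfl fun i _ => ?_
  rw [Finset.mul_sum]
  refine Finset.sum_congr rfl fun j _ => ?_
  rw [Matrix.diag_apply, Matrix.diag_apply, Matrix.diag_apply, LinearMap.toMatrix_apply, Matrix.stdBasis_eq_single, act_apply]
  have h1 : ∀ N : Matrix I J ℂ, (Matrix.stdBasis ℂ I J).repr N (i, j) = N i j := by
    intro N
    rw [Matrix.stdBasis]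
    simp
  rw [h1, Matrix.mul_apply, Finset.sum_eq_single j]
  · rw [Matrix.mul_single_apply_same, transpose_apply]
    ring
  · intro b _ hb
    rw [Matrix.mul_single_apply_of_ne _ _ _ _ _ hb]
    ring
  · intro h; exact absurd (Finset.mem_univ _) h

variable {G : Type u} [Group G] [Fintype G] (C : G →* Matrix I I ℂ) (D : G →* Matrix J J ℂ) (p : Matrix I I ℂ) (q : Matrix J J ℂ)

/-- the average -/
noncomputable def av : Module.End ℂ (Matrix I J ℂ) := (Nat.card G : ℂ)⁻¹ • ∑ g : G, act (C g) (D g)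

theorem cG : (Nat.card G : ℂ) ≠ 0 := by exact_mod_cast (Nat.card_pos (α := G)).ne'

theorem av_of_inv {N : Matrix I J ℂ} (h : ∀ g, C g * N * (D g)ᵀ = N) : av C D N = N := by
  rw [av, LinearMap.smul_apply, LinearMap.sum_apply, Finset.sum_congr rfl (fun g _ => show act (C g) (D g) N = N from h g),
    Finset.sum_const, Finset.card_univ, ← Nat.card_eq_fintype_card, ← Nat.cast_smul_eq_nsmul ℂ, smul_smul, inv_mul_cancel₀ (cG), one_smul]

theorem act_av (g : G) : act (C g) (D g) * av C D = av C D := by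
  rw [av, mul_smul_comm, Finset.mul_sum]
  congr 1
  rw [← Equiv.sum_comp (Equiv.mulLeft g) (fun g => act (C g) (D g))]
  refine Finset.sum_congr rfl fun h _ => ?_
  rw [Equiv.coe_mulLeft, map_mul, map_mul, act_mul]

theorem av_inv (g : G) (N : Matrix I J ℂ) : C g * (av C D N) * (D g)ᵀ = av C D N :=
  LinearMap.congr_fun (act_av C D g) N

theorem av_av : av C D * av C D = av C D := by
  apply LinearMap.ext
  intro N
  exact av_of_inv C D (fun g => av_inv C D g N)

variable {C D p q}

theorem comm_av (hp : ∀ g, p * C g = C g * p) (hq : ∀ g, q * D g = D g * q) : act p q * av C D = av C D * act p q := by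
  rw [av, mul_smul_comm, smul_mul_assoc, Finset.mul_sum, Finset.sum_mul]
  congr 1
  refine Finset.sum_congr rfl fun g _ => ?_
  rw [act_mul, act_mul, hp, hq]

theorem idem_av (hp : ∀ g, p * C g = C g * p) (hq : ∀ g, q * D g = D g * q) (hpp : p * p = p) (hqq : q * q = q) :
    (act p q * av C D) * (act p q * av C D) = act p q * av C D := by
  calc (act p q * av C D) * (act p q * av C D) = act p q * (av C D * act p q) * av C D := by simp only [mul_assoc]
    _ = act p q * (act p q * av C D) * av C D := by rw [comm_av hp hq]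
    _ = (act p q * act p q) * (av C D * av C D) := by simp only [mul_assoc]
    _ = _ := by rw [act_mul, hpp, hqq, av_av]

theorem trace_av : LinearMap.trace ℂ _ (act p q * av C D) = (Nat.card G : ℂ)⁻¹ * ∑ g : G, (p * C g).trace * (q * D g).trace := by
  rw [av, mul_smul_comm, Finset.mul_sum, map_smul, map_sum, smul_eq_mul]
  congr 1
  refine Finset.sum_congr rfl fun g _ => ?_
  rw [act_mul, trace_act]

theorem inv_fix {N : Matrix I J ℂ} (h : ∀ g, C g * N * (D g)ᵀ = N) (h' : p * N * qᵀ = N) : (act p q * av C D) N = N := by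
  show act p q (av C D N) = N
  rw [av_of_inv C D h, act_apply, h']

theorem inv_zero (hp : ∀ g, p * C g = C g * p) (hq : ∀ g, q * D g = D g * q) (hpp : p * p = p) (hqq : q * q = q)
    (hd : ∑ g : G, (p * C g).trace * (q * D g).trace = 0)
    {N : Matrix I J ℂ} (h : ∀ g, C g * N * (D g)ᵀ = N) (h' : p * N * qᵀ = N) : N = 0 := by
  have h1 := eq_zero_of_trace _ (idem_av hp hq hpp hqq) (by rw [trace_av, hd, mul_zero])
  rw [← inv_fix h h', h1]
  rfl

theorem inv_one (hp : ∀ g, p * C g = C g * p) (hq : ∀ g, q * D g = D g * q) (hpp : p * p = p) (hqq : q * q = q)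
    (hd : ∑ g : G, (p * C g).trace * (q * D g).trace = Nat.card G)
    {N : Matrix I J ℂ} (h : ∀ g, C g * N * (D g)ᵀ = N) (h' : p * N * qᵀ = N) (hN : N ≠ 0)
    {M : Matrix I J ℂ} (k : ∀ g, C g * M * (D g)ᵀ = M) (k' : p * M * qᵀ = M) : ∃ c : ℂ, M = c • N := by
  obtain ⟨v, φ, hvφ⟩ := exists_rank_one _ (idem_av hp hq hpp hqq) (by rw [trace_av, hd, inv_mul_cancel₀ cG])
  have e1 := hvφ N
  have e2 := hvφ M
  rw [inv_fix h h'] at e1
  rw [inv_fix k k'] at e2
  have h0 : φ N ≠ 0 := by
    intro h0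
    rw [h0, zero_smul] at e1
    exact hN e1
  refine ⟨φ M * (φ N)⁻¹, ?_⟩
  have e3 : v = (φ N)⁻¹ • N := by
    calc v = (φ N)⁻¹ • (φ N • v) := by rw [smul_smul, inv_mul_cancel₀ h0, one_smul]
      _ = (φ N)⁻¹ • N := by rw [← e1]
  calc M = φ M • v := e2
    _ = _ := by rw [e3, smul_smul]

theorem inv_exists (hp : ∀ g, p * C g = C g * p) (hq : ∀ g, q * D g = D g * q) (hpp : p * p = p) (hqq : q * q = q)
    (hd : ∑ g : G, (p * C g).trace * (q * D g).trace ≠ 0) :
    ∃ N : Matrix I J ℂ, N ≠ 0 ∧ (∀ g, C g * N * (D g)ᵀ = N) ∧ p * N * qᵀ = N := by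
  have h0 : act p q * av C D ≠ 0 := by
    intro h
    have h1 := congrArg (LinearMap.trace ℂ _) h
    rw [trace_av, map_zero] at h1
    exact (mul_ne_zero (inv_ne_zero (cG (G := G))) hd) h1
  obtain ⟨M, hM⟩ : ∃ M, (act p q * av C D) M ≠ 0 := by
    by_contra hc
    push Not at hc
    exact h0 (LinearMap.ext hc)
  refine ⟨(act p q * av C D) M, hM, ?_, ?_⟩
  · intro g
    have : (act p q * av C D) M = av C D (act p q M) := LinearMap.congr_fun (comm_av hp hq) M
    rw [this]
    exact av_inv C D g _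
  · have : (act p q * act p q * av C D) M = (act p q * av C D) M := by rw [act_mul, hpp, hqq]
    exact this

end act

section swap

variable {n : ℕ}

/-- the swap matrix -/
noncomputable def sw (n : ℕ) : Matrix (Fin n × Fin n) (Fin n × Fin n) ℂ := Matrix.of fun a b => if a.swap = b then 1 else 0

theorem sw_mul {J : Type} (M : Matrix (Fin n × Fin n) J ℂ) (a : Fin n × Fin n) (b : J) : (sw n * M) a b = M a.swap b := by
  rw [mul_apply]
  simp only [sw, of_apply, ite_mul, one_mul, zero_mul]
  rw [Finset.sum_ite_eq]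
  simp

theorem mul_sw {J : Type} (M : Matrix J (Fin n × Fin n) ℂ) (a : J) (b : Fin n × Fin n) : (M * sw n) a b = M a b.swap := by
  rw [mul_apply]
  simp only [sw, of_apply, mul_ite, mul_one, mul_zero]
  have : ∀ j : Fin n × Fin n, (if j.swap = b then M a j else 0) = if j = b.swap then M a j else 0 := by
    intro j
    have : j.swap = b ↔ j = b.swap := by
      constructor
      · rintro rfl; simp
      · rintro rfl; simp
    simp only [this]
  simp only [this]
  rw [Finset.sum_ite_eq']
  simp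

theorem sw_sw : sw n * sw n = 1 := by
  ext a b
  rw [sw_mul, sw, of_apply, Prod.swap_swap, one_apply]

theorem sw_t : (sw n)ᵀ = sw n := by
  ext a b
  rw [transpose_apply, sw, of_apply, of_apply]
  have : b.swap = a ↔ a.swap = b := by
    constructor
    · rintro rfl; simp
    · rintro rfl; simp
  simp only [this]

theorem sw_kron (A : Matrix (Fin n) (Fin n) ℂ) : sw n * (A ⊗ₖ A) = (A ⊗ₖ A) * sw n := by
  ext ⟨a, b⟩ ⟨c, d⟩
  rw [sw_mul, mul_sw]
  simp only [Prod.swap_prod_mk, kronecker_apply]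
  ring

theorem trace_sw_kron (A : Matrix (Fin n) (Fin n) ℂ) : (sw n * (A ⊗ₖ A)).trace = (A * A).trace := by
  rw [Matrix.trace, Fintype.sum_prod_type, Matrix.trace]
  refine Finset.sum_congr rfl fun i _ => ?_
  rw [diag_apply, mul_apply]
  refine Finset.sum_congr rfl fun j _ => ?_
  rw [diag_apply, sw_mul]
  simp only [Prod.swap_prod_mk, kronecker_apply]
  ring

/-- the symmetrizer and the antisymmetrizer -/
noncomputable def ps (n : ℕ) : Matrix (Fin n × Fin n) (Fin n × Fin n) ℂ := (2⁻¹ : ℂ) • (1 + sw n)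
noncomputable def pa (n : ℕ) : Matrix (Fin n × Fin n) (Fin n × Fin n) ℂ := (2⁻¹ : ℂ) • (1 - sw n)

theorem ps_ps : ps n * ps n = ps n := by
  have h1 : (1 + sw n) * (1 + sw n) = (2 : ℂ) • (1 + sw n) := by
    rw [Matrix.add_mul, Matrix.mul_add, Matrix.mul_add, sw_sw, Matrix.one_mul, Matrix.one_mul, Matrix.mul_one, two_smul]
    abel
  rw [ps, smul_mul_smul_comm, h1, smul_smul]
  norm_num

theorem pa_pa : pa n * pa n = pa n := by
  have h1 : (1 - sw n) * (1 - sw n) = (2 : ℂ) • (1 - sw n) := by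
    rw [Matrix.sub_mul, Matrix.mul_sub, Matrix.mul_sub, sw_sw, Matrix.one_mul, Matrix.one_mul, Matrix.mul_one, two_smul]
    abel
  rw [pa, smul_mul_smul_comm, h1, smul_smul]
  norm_num

theorem ps_t : (ps n)ᵀ = ps n := by rw [ps, transpose_smul, transpose_add, transpose_one, sw_t]
theorem pa_t : (pa n)ᵀ = pa n := by rw [pa, transpose_smul, transpose_sub, transpose_one, sw_t]

theorem ps_kron (A : Matrix (Fin n) (Fin n) ℂ) : ps n * (A ⊗ₖ A) = (A ⊗ₖ A) * ps n := by
  rw [ps, smul_mul_assoc, mul_smul_comm, Matrix.add_mul, Matrix.mul_add, sw_kron, Matrix.one_mul, Matrix.mul_one]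

theorem pa_kron (A : Matrix (Fin n) (Fin n) ℂ) : pa n * (A ⊗ₖ A) = (A ⊗ₖ A) * pa n := by
  rw [pa, smul_mul_assoc, mul_smul_comm, Matrix.sub_mul, Matrix.mul_sub, sw_kron, Matrix.one_mul, Matrix.mul_one]

theorem trace_kron (A : Matrix (Fin n) (Fin n) ℂ) : (A ⊗ₖ A).trace = A.trace ^ 2 := by rw [Matrix.trace_kronecker, pow_two]

theorem trace_ps (A : Matrix (Fin n) (Fin n) ℂ) : (ps n * (A ⊗ₖ A)).trace = (A.trace ^ 2 + (A * A).trace) / 2 := by
  rw [ps, smul_mul_assoc, Matrix.add_mul, trace_smul, trace_add, Matrix.one_mul, trace_sw_kron, trace_kron, smul_eq_mul]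
  ring

theorem trace_pa (A : Matrix (Fin n) (Fin n) ℂ) : (pa n * (A ⊗ₖ A)).trace = (A.trace ^ 2 - (A * A).trace) / 2 := by
  rw [pa, smul_mul_assoc, Matrix.sub_mul, trace_smul, trace_sub, Matrix.one_mul, trace_sw_kron, trace_kron, smul_eq_mul]
  ring

/-- the tensor square -/
noncomputable def kk {G : Type u} [Group G] (A : G →* Matrix (Fin n) (Fin n) ℂ) : G →* Matrix (Fin n × Fin n) (Fin n × Fin n) ℂ where
  toFun g := A g ⊗ₖ A g
  map_one' := by rw [map_one, one_kronecker_one]
  map_mul' a b := by rw [map_mul, mul_kronecker_mul]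

theorem kk_apply {G : Type u} [Group G] (A : G →* Matrix (Fin n) (Fin n) ℂ) (g : G) : kk A g = A g ⊗ₖ A g := rfl

end swap

section main

variable {G : Type u} [Group G] [Fintype G] {n : ℕ} {A : G →* Matrix (Fin n) (Fin n) ℂ}

/-- an invariant commutative product, with commutators of the multiplications proportional to the standard ones -/
structure Prod3 (A : G →* Matrix (Fin n) (Fin n) ℂ) where
  L : (Fin n → ℂ) →ₗ[ℂ] Matrix (Fin n) (Fin n) ℂ
  μ : ℂ
  ne : L ≠ 0
  symm : ∀ x, (L x)ᵀ = L x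
  comm : ∀ x y, L x *ᵥ y = L y *ᵥ x
  equiv : ∀ g x y, A g *ᵥ (L x *ᵥ y) = L (A g *ᵥ x) *ᵥ (A g *ᵥ y)
  rel : ∀ x y, L x * L y - L y * L x = μ • (vecMulVec x y - vecMulVec y x)

theorem orth' (hA : ∀ g, A g * (A g)ᵀ = 1) (g : G) : (A g)ᵀ * A g = 1 := mul_eq_one_comm.1 (hA g)

theorem orth_inv (hA : ∀ g, A g * (A g)ᵀ = 1) (g : G) : A g⁻¹ = (A g)ᵀ := by
  have h1 : A g⁻¹ * A g = 1 := by rw [← map_mul, inv_mul_cancel, map_one]
  calc A g⁻¹ = A g⁻¹ * (A g * (A g)ᵀ) := by rw [hA, Matrix.mul_one]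
    _ = (A g)ᵀ := by rw [← Matrix.mul_assoc, h1, Matrix.one_mul]

/-- a vector `x` as a combination: `Σ x_i y_j N k (i,j)` -/
theorem kron_vec (X : Matrix (Fin n) (Fin n) ℂ) (x y : Fin n → ℂ) :
    (X ⊗ₖ X) *ᵥ (fun p : Fin n × Fin n => x p.1 * y p.2) = fun p => (X *ᵥ x) p.1 * (X *ᵥ y) p.2 := by
  ext ⟨i, j⟩
  simp only [mulVec, dotProduct, kronecker_apply, Fintype.sum_prod_type, Finset.sum_mul, Finset.mul_sum]
  rw [Finset.sum_comm]
  refine Finset.sum_congr rfl fun a _ => Finset.sum_congr rfl fun b _ => ?_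
  ring

theorem exists_prod (hA : ∀ g, A g * (A g)ᵀ = 1)
    (h2 : ∑ g : G, (A g).trace * (((A g).trace ^ 2 + (A (g * g)).trace) / 2) ≠ 0)
    (h4 : ∑ g : G, (A g).trace * (((A g).trace ^ 2 - (A (g * g)).trace) / 2) = 0)
    (h3 : ∑ g : G, (((A g).trace ^ 2 - (A (g * g)).trace) / 2) ^ 2 = (Nat.card G : ℂ)) (hn : 2 ≤ n) : Nonempty (Prod3 A) := by
  obtain ⟨N, hN0, hNi, hNs⟩ := inv_exists (C := A) (D := kk A) (p := 1) (q := ps n) (fun g => by rw [Matrix.one_mul, Matrix.mul_one])
    (fun g => ps_kron _) (Matrix.one_mul _) ps_ps (by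
      intro h
      apply h2
      rw [← h]
      refine Finset.sum_congr rfl fun g _ => ?_
      rw [Matrix.one_mul, kk_apply, trace_ps, map_mul])
  rw [ps_t, Matrix.one_mul] at hNs
  have hNsym : ∀ k i j, N k (i, j) = N k (j, i) := by
    intro k i j
    have e1 : N * sw n = N := by
      calc N * sw n = N * ps n * sw n := by rw [hNs]
        _ = N * ps n := by
          rw [Matrix.mul_assoc, ps, smul_mul_assoc, Matrix.add_mul, sw_sw, Matrix.one_mul, add_comm]
        _ = N := hNs
    have e2 := mul_sw N k (i, j)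
    rw [e1] at e2
    exact e2
  -- the product
  let L : (Fin n → ℂ) →ₗ[ℂ] Matrix (Fin n) (Fin n) ℂ :=
    { toFun := fun x => Matrix.of fun k j => ∑ i, N k (i, j) * x i
      map_add' := by
        intro x y
        ext k j
        simp only [of_apply, Pi.add_apply, Matrix.add_apply, mul_add, Finset.sum_add_distrib]
      map_smul' := by
        intro c x
        ext k j
        simp only [of_apply, Pi.smul_apply, Matrix.smul_apply, smul_eq_mul, RingHom.id_apply, Finset.mul_sum]
        refine Finset.sum_congr rfl fun i _ => ?_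
        ring }
  have hL : ∀ x k j, L x k j = ∑ i, N k (i, j) * x i := fun x k j => rfl
  have hLv : ∀ x y, L x *ᵥ y = N *ᵥ (fun p : Fin n × Fin n => x p.1 * y p.2) := by
    intro x y
    ext k
    simp only [mulVec, dotProduct, hL, Fintype.sum_prod_type, Finset.sum_mul]
    rw [Finset.sum_comm]
    refine Finset.sum_congr rfl fun a _ => Finset.sum_congr rfl fun b _ => ?_
    ring
  have hcomm : ∀ x y, L x *ᵥ y = L y *ᵥ x := by
    intro x y
    ext k
    simp only [mulVec, dotProduct, hL, Finset.sum_mul]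
    rw [Finset.sum_comm]
    refine Finset.sum_congr rfl fun a _ => Finset.sum_congr rfl fun b _ => ?_
    rw [hNsym]; ring
  have hequiv : ∀ g x y, A g *ᵥ (L x *ᵥ y) = L (A g *ᵥ x) *ᵥ (A g *ᵥ y) := by
    intro g x y
    rw [hLv, hLv, ← kron_vec, mulVec_mulVec, mulVec_mulVec]
    congr 1
    have e1 := hNi g
    have e2 : (kk A g)ᵀ * kk A g = 1 := by
      rw [kk_apply, ← kroneckerMap_transpose, ← mul_kronecker_mul, orth' hA, one_kronecker_one]
    calc A g * N = A g * N * ((kk A g)ᵀ * kk A g) := by rw [e2, Matrix.mul_one]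
      _ = (A g * N * (kk A g)ᵀ) * kk A g := by simp only [Matrix.mul_assoc]
      _ = N * (A g ⊗ₖ A g) := by rw [e1, kk_apply]
  have hLA : ∀ g x, L (A g *ᵥ x) = A g * L x * (A g)ᵀ := by
    intro g x
    have e1 : A g * L x = L (A g *ᵥ x) * A g := by
      apply Matrix.ext_of_mulVec_single
      intro j
      rw [← mulVec_mulVec, ← mulVec_mulVec, hequiv]
    rw [e1, Matrix.mul_assoc, hA, Matrix.mul_one]
  have hne : L ≠ 0 := by
    intro h0
    apply hN0
    ext k ⟨i, j⟩
    have e1 := congrFun (congrFun (LinearMap.congr_fun h0 (Pi.single i 1)) k) j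
    rw [hL] at e1
    simp only [Pi.single_apply, mul_ite, mul_one, mul_zero, Finset.sum_ite_eq', Finset.mem_univ, if_true] at e1
    rw [e1]; rfl
  -- symmetry
  have hLN : ∀ i k j, L (Pi.single i 1) k j = N k (i, j) := by
    intro i k j
    rw [hL]
    simp only [Pi.single_apply, mul_ite, mul_one, mul_zero, Finset.sum_ite_eq', Finset.mem_univ, if_true]
  have hsymm : ∀ x, (L x)ᵀ = L x := by
    let N' : Matrix (Fin n) (Fin n × Fin n) ℂ := Matrix.of fun i p => N p.1 (i, p.2) - N p.2 (i, p.1)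
    have hN'v : ∀ x y i, (N' *ᵥ (fun p : Fin n × Fin n => x p.1 * y p.2)) i =
        x ⬝ᵥ (L (Pi.single i 1) *ᵥ y) - y ⬝ᵥ (L (Pi.single i 1) *ᵥ x) := by
      intro x y i
      simp only [mulVec, dotProduct, hLN, Fintype.sum_prod_type, Finset.mul_sum]
      rw [Finset.sum_comm (f := fun a b => y a * (N a (i, b) * x b)), ← Finset.sum_sub_distrib]
      refine Finset.sum_congr rfl fun a _ => ?_
      rw [← Finset.sum_sub_distrib]
      refine Finset.sum_congr rfl fun b _ => ?_
      show (N a (i, b) - N b (i, a)) * _ = _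
      ring
    have h0 : N' = 0 := by
      apply inv_zero (C := A) (D := kk A) (p := 1) (q := pa n) (fun g => by rw [Matrix.one_mul, Matrix.mul_one])
        (fun g => pa_kron _) (Matrix.one_mul _) pa_pa
      · rw [← h4]
        refine Finset.sum_congr rfl fun g _ => ?_
        rw [Matrix.one_mul, kk_apply, trace_pa, map_mul]
      · intro g
        have e1 : A g * N' = N' * kk A g := by
          apply Matrix.ext_of_mulVec_single
          rintro ⟨a, b⟩
          have e0 : (Pi.single (a, b) 1 : Fin n × Fin n → ℂ) = fun p => (Pi.single a 1 : Fin n → ℂ) p.1 * (Pi.single b 1 : Fin n → ℂ) p.2 := by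
            ext ⟨c, d⟩
            simp only [Pi.single_apply, Prod.mk.injEq]
            by_cases h1 : c = a <;> by_cases h2 : d = b <;> simp [h1, h2]
          rw [← mulVec_mulVec, ← mulVec_mulVec, e0, kk_apply, kron_vec]
          ext i
          rw [hN'v]
          have e2 : (A g *ᵥ (N' *ᵥ fun p => (Pi.single a 1 : Fin n → ℂ) p.1 * (Pi.single b 1 : Fin n → ℂ) p.2)) i =
              ∑ m, A g i m * ((Pi.single a 1 : Fin n → ℂ) ⬝ᵥ (L (Pi.single m 1) *ᵥ Pi.single b 1) - Pi.single b 1 ⬝ᵥ (L (Pi.single m 1) *ᵥ Pi.single a 1)) := by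
            rw [mulVec, dotProduct]
            refine Finset.sum_congr rfl fun m _ => ?_
            rw [hN'v]
          rw [e2]
          have e3 : ∀ x y : Fin n → ℂ, (A g *ᵥ x) ⬝ᵥ (L (Pi.single i 1) *ᵥ (A g *ᵥ y)) = ∑ m, A g i m * (x ⬝ᵥ (L (Pi.single m 1) *ᵥ y)) := by
            intro x y
            have e4 : (A g)ᵀ * L (Pi.single i 1) * A g = ∑ m, A g i m • L (Pi.single m 1) := by
              have e5 := hLA g⁻¹ (Pi.single i 1)
              rw [orth_inv hA, transpose_transpose] at e5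
              rw [← e5]
              have e6 : (A g)ᵀ *ᵥ Pi.single i 1 = ∑ m, A g i m • Pi.single m 1 := by
                rw [mulVec_single_one]
                ext c
                simp [Finset.sum_apply, Pi.single_apply]
              rw [e6, map_sum]
              refine Finset.sum_congr rfl fun m _ => ?_
              rw [map_smul]
            have e7 : (A g *ᵥ x) ⬝ᵥ (L (Pi.single i 1) *ᵥ (A g *ᵥ y)) = x ⬝ᵥ (((A g)ᵀ * L (Pi.single i 1) * A g) *ᵥ y) := by
              rw [← mulVec_mulVec, ← mulVec_mulVec, dotProduct_mulVec x, vecMul_transpose]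
            rw [e7, e4, sum_mulVec, dotProduct_sum]
            refine Finset.sum_congr rfl fun m _ => ?_
            rw [smul_mulVec, dotProduct_smul, smul_eq_mul]
          rw [e3, e3, ← Finset.sum_sub_distrib]
          refine Finset.sum_congr rfl fun m _ => ?_
          ring
        rw [e1, Matrix.mul_assoc, kk_apply, ← kroneckerMap_transpose, ← mul_kronecker_mul, hA, one_kronecker_one, Matrix.mul_one]
      · rw [Matrix.one_mul, pa_t, pa, Matrix.mul_smul, Matrix.mul_sub, Matrix.mul_one]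
        have e1 : N' * sw n = - N' := by
          ext i ⟨a, b⟩
          rw [mul_sw]
          show N b (i, a) - N a (i, b) = -(N a (i, b) - N b (i, a))
          ring
        rw [e1, sub_neg_eq_add, ← two_smul ℂ N', smul_smul]
        norm_num
    have h1 : ∀ i k j, N k (i, j) = N j (i, k) := by
      intro i k j
      have := congrFun (congrFun h0 i) (k, j)
      exact sub_eq_zero.1 this
    intro x
    ext k j
    rw [transpose_apply, hL, hL]
    refine Finset.sum_congr rfl fun i _ => ?_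
    rw [h1]
  -- the commutator
  let M : Matrix (Fin n × Fin n) (Fin n × Fin n) ℂ := Matrix.of fun a b =>
    (L (Pi.single b.1 1) * L (Pi.single b.2 1) - L (Pi.single b.2 1) * L (Pi.single b.1 1)) a.1 a.2
  let F : (Fin n → ℂ) → (Fin n → ℂ) → Matrix (Fin n) (Fin n) ℂ := fun x y => L x * L y - L y * L x
  have hFadd : ∀ (s : Finset (Fin n)) (c : Fin n → ℂ) (v : Fin n → Fin n → ℂ) (y : Fin n → ℂ), F (∑ i ∈ s, c i • v i) y = ∑ i ∈ s, c i • F (v i) y := by
    intro s c v y
    show L _ * L y - L y * L _ = _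
    rw [map_sum, Finset.sum_mul, Finset.mul_sum, ← Finset.sum_sub_distrib]
    refine Finset.sum_congr rfl fun i _ => ?_
    rw [map_smul, smul_mul_assoc, mul_smul_comm, ← smul_sub]
  have hFneg : ∀ x y, F x y = - F y x := by
    intro x y
    show L x * L y - L y * L x = -(L y * L x - L x * L y)
    rw [neg_sub]
  have hFadd' : ∀ (s : Finset (Fin n)) (c : Fin n → ℂ) (v : Fin n → Fin n → ℂ) (y : Fin n → ℂ), F y (∑ i ∈ s, c i • v i) = ∑ i ∈ s, c i • F y (v i) := by
    intro s c v y
    rw [hFneg, hFadd, ← Finset.sum_neg_distrib]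
    refine Finset.sum_congr rfl fun i _ => ?_
    rw [hFneg y, smul_neg]
  have hbas : ∀ x : Fin n → ℂ, x = ∑ i, x i • (Pi.single i 1 : Fin n → ℂ) := by
    intro x
    ext c
    simp [Finset.sum_apply, Pi.single_apply]
  have hFM : ∀ x y, F x y = ∑ i, ∑ j, (x i * y j) • F (Pi.single i 1) (Pi.single j 1) := by
    intro x y
    conv_lhs => rw [hbas x, hFadd]
    refine Finset.sum_congr rfl fun i _ => ?_
    conv_lhs => rw [hbas y, hFadd', Finset.smul_sum]
    refine Finset.sum_congr rfl fun j _ => ?_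
    rw [smul_smul]
  have hFA : ∀ g x y, F (A g *ᵥ x) (A g *ᵥ y) = A g * F x y * (A g)ᵀ := by
    intro g x y
    show L _ * L _ - L _ * L _ = A g * (L x * L y - L y * L x) * (A g)ᵀ
    rw [hLA, hLA, Matrix.mul_sub, Matrix.sub_mul]
    congr 1
    · calc A g * L x * (A g)ᵀ * (A g * L y * (A g)ᵀ) = A g * L x * ((A g)ᵀ * A g) * L y * (A g)ᵀ := by simp only [Matrix.mul_assoc]
        _ = _ := by rw [orth' hA, Matrix.mul_one]; simp only [Matrix.mul_assoc]
    · calc A g * L y * (A g)ᵀ * (A g * L x * (A g)ᵀ) = A g * L y * ((A g)ᵀ * A g) * L x * (A g)ᵀ := by simp only [Matrix.mul_assoc]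
        _ = _ := by rw [orth' hA, Matrix.mul_one]; simp only [Matrix.mul_assoc]
  have hFt : ∀ x y, (F x y)ᵀ = - F x y := by
    intro x y
    show (L x * L y - L y * L x)ᵀ = -(L x * L y - L y * L x)
    rw [transpose_sub, transpose_mul, transpose_mul, hsymm, hsymm, neg_sub]
  have hM : ∀ a b, M a b = F (Pi.single b.1 1) (Pi.single b.2 1) a.1 a.2 := fun a b => rfl
  have hMi : ∀ g, kk A g * M * (kk A g)ᵀ = M := by
    intro g
    have e1 : kk A g * M = M * kk A g := by
      ext ⟨a, b⟩ ⟨i, j⟩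
      have e2 := congrFun (congrFun (hFA g (Pi.single i 1) (Pi.single j 1)) a) b
      rw [hFM] at e2
      have e3 : (M * kk A g) (a, b) (i, j) = (∑ c, ∑ d, ((A g *ᵥ Pi.single i 1) c * (A g *ᵥ Pi.single j 1) d) • F (Pi.single c 1) (Pi.single d 1)) a b := by
        rw [mul_apply, Fintype.sum_prod_type]
        simp only [Matrix.sum_apply]
        refine Finset.sum_congr rfl fun c _ => Finset.sum_congr rfl fun d _ => ?_
        rw [kk_apply, kronecker_apply, hM, mulVec_single_one, mulVec_single_one, Matrix.smul_apply, smul_eq_mul]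
        simp only [col_apply]
        ring
      rw [e3, e2, mul_apply, Fintype.sum_prod_type, mul_apply]
      simp only [mul_apply, Finset.sum_mul]
      rw [Finset.sum_comm]
      refine Finset.sum_congr rfl fun c _ => Finset.sum_congr rfl fun d _ => ?_
      rw [kk_apply, kronecker_apply, hM, transpose_apply]
      ring
    rw [e1, Matrix.mul_assoc, kk_apply, ← kroneckerMap_transpose, ← mul_kronecker_mul, hA, one_kronecker_one, Matrix.mul_one]
  have hpaM : pa n * M * (pa n)ᵀ = M := by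
    have e1 : sw n * M = - M := by
      ext ⟨a, b⟩ ⟨i, j⟩
      rw [sw_mul]
      have := congrFun (congrFun (hFt (Pi.single i 1) (Pi.single j 1)) a) b
      exact this
    have e2 : M * sw n = - M := by
      ext ⟨a, b⟩ ⟨i, j⟩
      rw [mul_sw]
      have := congrFun (congrFun (hFneg (Pi.single j 1) (Pi.single i 1)) a) b
      exact this
    rw [pa_t, pa, smul_mul_assoc, mul_smul_comm, smul_mul_assoc, Matrix.sub_mul, Matrix.one_mul, e1, sub_neg_eq_add, Matrix.mul_sub,
      Matrix.mul_one, Matrix.add_mul, e2, ← two_smul ℂ M, smul_smul, smul_sub]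
    have : (-M + -M : Matrix (Fin n × Fin n) (Fin n × Fin n) ℂ) = - ((2 : ℂ) • M) := by rw [two_smul]; abel
    rw [this, smul_neg, smul_smul, sub_neg_eq_add, ← add_smul]
    norm_num
  have hpai : ∀ g, kk A g * pa n * (kk A g)ᵀ = pa n := by
    intro g
    rw [kk_apply, ← pa_kron, Matrix.mul_assoc, ← kroneckerMap_transpose, ← mul_kronecker_mul, hA, one_kronecker_one, Matrix.mul_one]
  have hpap : pa n * pa n * (pa n)ᵀ = pa n := by rw [pa_t, pa_pa, pa_pa]
  have hpa0 : pa n ≠ 0 := by
    intro h0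
    have e1 := congrFun (congrFun h0 (⟨0, by omega⟩, ⟨1, by omega⟩)) (⟨0, by omega⟩, ⟨1, by omega⟩)
    rw [pa, Matrix.smul_apply, Matrix.sub_apply, one_apply_eq, sw, of_apply, if_neg (by simp)] at e1
    norm_num at e1
  obtain ⟨c, hc⟩ := inv_one (C := kk A) (D := kk A) (p := pa n) (q := pa n) (fun g => pa_kron _) (fun g => pa_kron _) pa_pa pa_pa
    (by
      rw [← h3]
      refine Finset.sum_congr rfl fun g _ => ?_
      rw [kk_apply, trace_pa, map_mul, pow_two ((_ : ℂ) / 2)]) hpai hpap hpa0 hMi hpaM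
  refine ⟨⟨L, c / 2, hne, hsymm, hcomm, hequiv, ?_⟩⟩
  intro x y
  show F x y = _
  rw [hFM]
  ext a b
  simp only [Matrix.sum_apply, Matrix.smul_apply, smul_eq_mul, Matrix.sub_apply, vecMulVec_apply]
  have e1 : ∀ i j, F (Pi.single i 1) (Pi.single j 1) a b = c / 2 * ((if (a, b) = (i, j) then 1 else 0) - (if (b, a) = (i, j) then 1 else 0)) := by
    intro i j
    have e2 := hM (a, b) (i, j)
    rw [hc, Matrix.smul_apply, pa, Matrix.smul_apply, Matrix.sub_apply, one_apply, sw, of_apply, smul_eq_mul, smul_eq_mul] at e2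
    rw [← e2]
    simp only [Prod.swap_prod_mk]
    ring
  simp only [e1]
  have e3 : ∀ i j, x i * y j * (c / 2 * ((if (a, b) = (i, j) then 1 else 0) - (if (b, a) = (i, j) then 1 else 0))) =
      (if j = b then (if i = a then c / 2 * (x i * y j) else 0) else 0) - (if j = a then (if i = b then c / 2 * (x i * y j) else 0) else 0) := by
    intro i j
    simp only [Prod.mk.injEq, eq_comm (a := a) (b := i), eq_comm (a := b) (b := j), eq_comm (a := b) (b := i), eq_comm (a := a) (b := j),
      ite_and]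
    split_ifs <;> ring
  simp only [e3, Finset.sum_sub_distrib, Finset.sum_ite_eq', Finset.mem_univ, if_true]
  ring

end main

end Cfsg.Agent.Lib.AlgTrick
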