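import Mathlib
import Cfsg.Agent.Lib.AlgTrickB

/-!
# The algebra trick, part C: the commutative algebra and the permutation action (helper7)
-/

set_option autoImplicit false
set_option linter.all false

namespace Cfsg.Agent.Lib.AlgTrick

open Matrix

universe u v

variable {G : Type u} [Group G] {n : ℕ} {A : G →* Matrix (Fin n) (Fin n) ℂ}

/-- the algebra `ℂ ⊕ V` -/
def Alg (D : Prod3 A) : Type := ℂ × (Fin n → ℂ)

variable (D : Prod3 A)

noncomputable instance : AddCommGroup (Alg D) := inferInstanceAs (AddCommGroup (ℂ × (Fin n → ℂ)))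
noncomputable instance instModAlg : Module ℂ (Alg D) := inferInstanceAs (Module ℂ (ℂ × (Fin n → ℂ)))

noncomputable def amul (u v : ℂ × (Fin n → ℂ)) : ℂ × (Fin n → ℂ) :=
  (u.1 * v.1 - D.μ * (u.2 ⬝ᵥ v.2), u.1 • v.2 + v.1 • u.2 + D.L u.2 *ᵥ v.2)

theorem amul_comm (u v : ℂ × (Fin n → ℂ)) : amul D u v = amul D v u := by
  refine Prod.ext ?_ ?_
  · show u.1 * v.1 - D.μ * (u.2 ⬝ᵥ v.2) = v.1 * u.1 - D.μ * (v.2 ⬝ᵥ u.2)
    rw [dotProduct_comm, mul_comm u.1]
  · show u.1 • v.2 + v.1 • u.2 + D.L u.2 *ᵥ v.2 = v.1 • u.2 + u.1 • v.2 + D.L v.2 *ᵥ u.2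
    rw [D.comm, add_comm (u.1 • v.2)]

theorem amul_add (u v w : ℂ × (Fin n → ℂ)) : amul D u (v + w) = amul D u v + amul D u w := by
  refine Prod.ext ?_ ?_
  · show u.1 * (v.1 + w.1) - D.μ * (u.2 ⬝ᵥ (v.2 + w.2)) = (u.1 * v.1 - D.μ * (u.2 ⬝ᵥ v.2)) + (u.1 * w.1 - D.μ * (u.2 ⬝ᵥ w.2))
    rw [dotProduct_add]; ring
  · show u.1 • (v.2 + w.2) + (v.1 + w.1) • u.2 + D.L u.2 *ᵥ (v.2 + w.2) =
      (u.1 • v.2 + v.1 • u.2 + D.L u.2 *ᵥ v.2) + (u.1 • w.2 + w.1 • u.2 + D.L u.2 *ᵥ w.2)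
    rw [mulVec_add, smul_add, add_smul]; abel

theorem amul_smul (c : ℂ) (u v : ℂ × (Fin n → ℂ)) : amul D u (c • v) = c • amul D u v := by
  refine Prod.ext ?_ ?_
  · show u.1 * (c * v.1) - D.μ * (u.2 ⬝ᵥ (c • v.2)) = c * (u.1 * v.1 - D.μ * (u.2 ⬝ᵥ v.2))
    rw [dotProduct_smul, smul_eq_mul]; ring
  · show u.1 • (c • v.2) + (c * v.1) • u.2 + D.L u.2 *ᵥ (c • v.2) = c • (u.1 • v.2 + v.1 • u.2 + D.L u.2 *ᵥ v.2)
    rw [mulVec_smul, smul_add, smul_add, smul_smul, smul_smul, smul_smul, mul_comm u.1]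

theorem one_amul (u : ℂ × (Fin n → ℂ)) : amul D (1, 0) u = u := by
  refine Prod.ext ?_ ?_
  · show 1 * u.1 - D.μ * ((0 : Fin n → ℂ) ⬝ᵥ u.2) = u.1
    rw [zero_dotProduct]; ring
  · show (1 : ℂ) • u.2 + u.1 • (0 : Fin n → ℂ) + D.L 0 *ᵥ u.2 = u.2
    rw [map_zero, zero_mulVec, smul_zero, one_smul, add_zero, add_zero]

theorem sym_dot (x y z : Fin n → ℂ) : x ⬝ᵥ (D.L y *ᵥ z) = y ⬝ᵥ (D.L x *ᵥ z) := by
  rw [dotProduct_mulVec, ← mulVec_transpose, D.symm, D.comm, dotProduct_mulVec y, ← mulVec_transpose, D.symm]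

theorem rel_vec (x y z : Fin n → ℂ) : D.L x *ᵥ (D.L y *ᵥ z) - D.L y *ᵥ (D.L x *ᵥ z) = D.μ • ((y ⬝ᵥ z) • x - (x ⬝ᵥ z) • y) := by
  have h := congrArg (fun M : Matrix (Fin n) (Fin n) ℂ => M *ᵥ z) (D.rel x y)
  simp only [sub_mulVec, ← mulVec_mulVec, smul_mulVec, vecMulVec_mulVec] at h
  rw [h]
  simp

theorem amul_left_comm (u v w : ℂ × (Fin n → ℂ)) : amul D u (amul D v w) = amul D v (amul D u w) := by
  refine Prod.ext ?_ ?_
  · show u.1 * (v.1 * w.1 - D.μ * (v.2 ⬝ᵥ w.2)) - D.μ * (u.2 ⬝ᵥ (v.1 • w.2 + w.1 • v.2 + D.L v.2 *ᵥ w.2)) =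
      v.1 * (u.1 * w.1 - D.μ * (u.2 ⬝ᵥ w.2)) - D.μ * (v.2 ⬝ᵥ (u.1 • w.2 + w.1 • u.2 + D.L u.2 *ᵥ w.2))
    simp only [dotProduct_add, dotProduct_smul, smul_eq_mul]
    rw [sym_dot, dotProduct_comm u.2 v.2]
    ring
  · show u.1 • (v.1 • w.2 + w.1 • v.2 + D.L v.2 *ᵥ w.2) + (v.1 * w.1 - D.μ * (v.2 ⬝ᵥ w.2)) • u.2 + D.L u.2 *ᵥ (v.1 • w.2 + w.1 • v.2 + D.L v.2 *ᵥ w.2) =
      v.1 • (u.1 • w.2 + w.1 • u.2 + D.L u.2 *ᵥ w.2) + (u.1 * w.1 - D.μ * (u.2 ⬝ᵥ w.2)) • v.2 + D.L v.2 *ᵥ (u.1 • w.2 + w.1 • u.2 + D.L u.2 *ᵥ w.2)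
    have h := rel_vec D u.2 v.2 w.2
    have h' : D.L u.2 *ᵥ (D.L v.2 *ᵥ w.2) = D.L v.2 *ᵥ (D.L u.2 *ᵥ w.2) + D.μ • ((v.2 ⬝ᵥ w.2) • u.2 - (u.2 ⬝ᵥ w.2) • v.2) := by
      rw [← h]; abel
    simp only [mulVec_add, mulVec_smul]
    rw [h', D.comm v.2 u.2]
    module

theorem amul_assoc (u v w : ℂ × (Fin n → ℂ)) : amul D (amul D u v) w = amul D u (amul D v w) := by
  rw [amul_comm D (amul D u v) w, amul_left_comm D w u v, amul_comm D w v]

theorem add_amul (u v w : ℂ × (Fin n → ℂ)) : amul D (u + v) w = amul D u w + amul D v w := by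
  rw [amul_comm, amul_add, amul_comm D w u, amul_comm D w v]

theorem smul_amul (c : ℂ) (u v : ℂ × (Fin n → ℂ)) : amul D (c • u) v = c • amul D u v := by
  rw [amul_comm, amul_smul, amul_comm]

theorem amul_zero (u : ℂ × (Fin n → ℂ)) : amul D u 0 = 0 := by
  have := amul_smul D 0 u 0
  rw [zero_smul, zero_smul] at this
  exact this

theorem zero_amul (u : ℂ × (Fin n → ℂ)) : amul D 0 u = 0 := by rw [amul_comm, amul_zero]

noncomputable instance instCR : CommRing (Alg D) :=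
  { (inferInstance : AddCommGroup (Alg D)) with
    mul := amul D
    one := ((1 : ℂ), (0 : Fin n → ℂ))
    mul_assoc := amul_assoc D
    one_mul := one_amul D
    mul_one := fun u => (amul_comm D _ _).trans (one_amul D u)
    left_distrib := amul_add D
    right_distrib := add_amul D
    mul_comm := amul_comm D
    zero_mul := zero_amul D
    mul_zero := amul_zero D }

theorem mul_def' (u v : Alg D) : u * v = amul D u v := rfl
theorem one_def' : (1 : Alg D) = ((1 : ℂ), (0 : Fin n → ℂ)) := rfl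

noncomputable instance instAlgAlg : Algebra ℂ (Alg D) := Algebra.ofModule
  (fun c u v => smul_amul D c u v)
  (fun c u v => amul_smul D c u v)

instance : Nontrivial (Alg D) := ⟨⟨1, 0, fun h => one_ne_zero (congrArg (fun z : ℂ × (Fin n → ℂ) => z.1) h)⟩⟩

instance : Module.Finite ℂ (Alg D) := inferInstanceAs (Module.Finite ℂ (ℂ × (Fin n → ℂ)))

instance : IsArtinianRing (Alg D) := IsArtinianRing.of_finite ℂ (Alg D)

def mkA (a : ℂ) (x : Fin n → ℂ) : Alg D := ((a, x) : ℂ × (Fin n → ℂ))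
variable {D} in
def re (u : Alg D) : ℂ := @Prod.fst ℂ (Fin n → ℂ) u
variable {D} in
def im (u : Alg D) : Fin n → ℂ := @Prod.snd ℂ (Fin n → ℂ) u

theorem mk_re_im (u : Alg D) : mkA D (re u) (im u) = u := rfl
theorem re_mkA (a : ℂ) (x : Fin n → ℂ) : re (mkA D a x) = a := rfl
theorem im_mkA (a : ℂ) (x : Fin n → ℂ) : im (mkA D a x) = x := rfl
theorem mkA_add (a b : ℂ) (x y : Fin n → ℂ) : mkA D a x + mkA D b y = mkA D (a + b) (x + y) := rfl
theorem smul_mkA (c a : ℂ) (x : Fin n → ℂ) : c • mkA D a x = mkA D (c * a) (c • x) := rfl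
theorem mkA_mul (a b : ℂ) (x y : Fin n → ℂ) :
    mkA D a x * mkA D b y = mkA D (a * b - D.μ * (x ⬝ᵥ y)) (a • y + b • x + D.L x *ᵥ y) := rfl
theorem mkA_zero : mkA D 0 0 = 0 := rfl
theorem mkA_one : mkA D 1 0 = 1 := rfl

theorem mkA_inj {a b : ℂ} {x y : Fin n → ℂ} (h : mkA D a x = mkA D b y) : a = b ∧ x = y :=
  ⟨congrArg re h, congrArg im h⟩

/-- the linear action -/
noncomputable def alin (A : G →* Matrix (Fin n) (Fin n) ℂ) (g : G) : (ℂ × (Fin n → ℂ)) →ₗ[ℂ] (ℂ × (Fin n → ℂ)) :=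
  LinearMap.prodMap (LinearMap.id : ℂ →ₗ[ℂ] ℂ) (A g).mulVecLin

theorem alin_apply (g : G) (u : ℂ × (Fin n → ℂ)) : alin A g u = (u.1, A g *ᵥ u.2) := rfl

theorem orthT (hA : ∀ g, A g * (A g)ᵀ = 1) (g : G) : (A g)ᵀ * A g = 1 := mul_eq_one_comm.1 (hA g)

theorem dot_orth (hA : ∀ g, A g * (A g)ᵀ = 1) (g : G) (x y : Fin n → ℂ) : (A g *ᵥ x) ⬝ᵥ (A g *ᵥ y) = x ⬝ᵥ y := by
  rw [dotProduct_mulVec, vecMul_mulVec, orthT hA, vecMul_one]

theorem alin_mul (hA : ∀ g, A g * (A g)ᵀ = 1) (g : G) (u v : ℂ × (Fin n → ℂ)) :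
    alin A g (amul D u v) = amul D (alin A g u) (alin A g v) := by
  refine Prod.ext ?_ ?_
  · show u.1 * v.1 - D.μ * (u.2 ⬝ᵥ v.2) = u.1 * v.1 - D.μ * ((A g *ᵥ u.2) ⬝ᵥ (A g *ᵥ v.2))
    rw [dot_orth hA]
  · show A g *ᵥ (u.1 • v.2 + v.1 • u.2 + D.L u.2 *ᵥ v.2) = u.1 • (A g *ᵥ v.2) + v.1 • (A g *ᵥ u.2) + D.L (A g *ᵥ u.2) *ᵥ (A g *ᵥ v.2)
    rw [mulVec_add, mulVec_add, mulVec_smul, mulVec_smul, D.equiv]

/-- the action on the algebra -/
noncomputable def al (hA : ∀ g, A g * (A g)ᵀ = 1) (g : G) : Alg D →ₐ[ℂ] Alg D :=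
  AlgHom.ofLinearMap (alin A g)
    (by
      show ((1 : ℂ), A g *ᵥ (0 : Fin n → ℂ)) = (1, 0)
      rw [mulVec_zero])
    (alin_mul D hA g)

theorem al_mkA (hA : ∀ g, A g * (A g)ᵀ = 1) (g : G) (a : ℂ) (x : Fin n → ℂ) : al D hA g (mkA D a x) = mkA D a (A g *ᵥ x) := rfl

theorem al_one (hA : ∀ g, A g * (A g)ᵀ = 1) : al D hA 1 = AlgHom.id ℂ _ := by
  apply AlgHom.ext
  intro u
  rw [← mk_re_im D u, al_mkA, map_one, one_mulVec]
  rfl

theorem al_mul (hA : ∀ g, A g * (A g)ᵀ = 1) (g h : G) : al D hA (g * h) = (al D hA g).comp (al D hA h) := by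
  apply AlgHom.ext
  intro u
  rw [← mk_re_im D u, AlgHom.comp_apply, al_mkA, al_mkA, al_mkA, map_mul, mulVec_mulVec]

theorem sum_mkA {ι : Type*} (s : Finset ι) (a : ι → ℂ) (x : ι → Fin n → ℂ) : ∑ i ∈ s, mkA D (a i) (x i) = mkA D (∑ i ∈ s, a i) (∑ i ∈ s, x i) := by
  classical
  induction s using Finset.induction_on with
  | empty => rfl
  | insert i s hi ih => rw [Finset.sum_insert hi, Finset.sum_insert hi, Finset.sum_insert hi, ih, mkA_add]

section red

variable [Fintype G]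

theorem nil_fst (hA : ∀ g, A g * (A g)ᵀ = 1) (h0 : ∀ v : Fin n → ℂ, (∀ g, A g *ᵥ v = v) → v = 0) (u : Alg D) (hu : u ∈ nilradical (Alg D)) :
    re u = 0 := by
  have h1 : ∀ g, al D hA g u ∈ nilradical (Alg D) := by
    intro g
    rw [mem_nilradical] at hu ⊢
    exact hu.map _
  have h2 : ∑ g : G, al D hA g u ∈ nilradical (Alg D) := Ideal.sum_mem _ (fun g _ => h1 g)
  have h3 : ∑ g : G, A g *ᵥ im u = 0 := by
    apply h0
    intro g
    rw [mulVec_sum]
    simp only [mulVec_mulVec, ← map_mul]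
    exact Equiv.sum_comp (Equiv.mulLeft g) (fun h => A h *ᵥ im u)
  have h4 : ∑ g : G, al D hA g u = ((Nat.card G : ℂ) * re u) • (1 : Alg D) := by
    have e1 : ∀ g, al D hA g u = mkA D (re u) (A g *ᵥ im u) := fun g => rfl
    simp only [e1]
    rw [sum_mkA, h3, Finset.sum_const, Finset.card_univ, ← Nat.card_eq_fintype_card, nsmul_eq_mul, ← mkA_one, smul_mkA, mul_one, smul_zero]
  by_contra hne
  rw [h4] at h2
  have h5 : ((Nat.card G : ℂ) * re u) ≠ 0 := mul_ne_zero cG hne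
  have h6 : (1 : Alg D) ∈ nilradical (Alg D) := by
    have := (nilradical (Alg D)).smul_of_tower_mem (((Nat.card G : ℂ) * re u)⁻¹) h2
    rwa [smul_smul, inv_mul_cancel₀ h5, one_smul] at this
  rw [mem_nilradical] at h6
  exact not_isNilpotent_one h6

theorem reduced (hA : ∀ g, A g * (A g)ᵀ = 1) (h0 : ∀ v : Fin n → ℂ, (∀ g, A g *ᵥ v = v) → v = 0)
    (hirr : ∀ U : Submodule ℂ (Fin n → ℂ), (∀ g, ∀ v ∈ U, A g *ᵥ v ∈ U) → U = ⊥ ∨ U = ⊤) (hn : 1 ≤ n) : nilradical (Alg D) = ⊥ := by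
  obtain ⟨N, hN⟩ : ∃ N, N = nilradical (Alg D) := ⟨_, rfl⟩
  have hnil : ∀ u, u ∈ N → IsNilpotent u := by
    intro u hu
    rw [hN] at hu
    exact mem_nilradical.1 hu
  have hnil' : ∀ u, IsNilpotent u → u ∈ N := by
    intro u hu
    rw [hN]
    exact mem_nilradical.2 hu
  rw [← hN]
  let U : Submodule ℂ (Fin n → ℂ) :=
    { carrier := {x | mkA D 0 x ∈ N}
      add_mem' := by
        intro a b ha hb
        have := N.add_mem ha hb
        rw [mkA_add, add_zero] at this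
        exact this
      zero_mem' := N.zero_mem
      smul_mem' := by
        intro c a ha
        have := N.smul_of_tower_mem c ha
        rw [smul_mkA, mul_zero] at this
        exact this }
  have hU : ∀ x, x ∈ U ↔ mkA D 0 x ∈ N := fun x => Iff.rfl
  have hUst : ∀ g, ∀ v ∈ U, A g *ᵥ v ∈ U := by
    intro g v hv
    rw [hU] at hv ⊢
    rw [← al_mkA D hA]
    exact hnil' _ ((hnil _ hv).map (al D hA g))
  have hfst : ∀ u ∈ N, re u = 0 := fun u hu => nil_fst D hA h0 u (hN ▸ hu)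
  have hform : ∀ u ∈ N, u = mkA D 0 (im u) := fun u hu => by
    conv_lhs => rw [← mk_re_im D u, hfst u hu]
  rcases hirr U hUst with hb | ht
  · rw [eq_bot_iff]
    intro u hu
    have h1 : im u ∈ U := by
      rw [hU, ← hform u hu]; exact hu
    rw [hb, Submodule.mem_bot] at h1
    rw [hform u hu, h1]
    rfl
  · exfalso
    have hall : ∀ x, mkA D 0 x ∈ N := by
      intro x
      rw [← hU, ht]; trivial
    have hprod : ∀ x y : Fin n → ℂ, mkA D 0 x * mkA D 0 y = mkA D (- (D.μ * (x ⬝ᵥ y))) (D.L x *ᵥ y) := by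
      intro x y
      rw [mkA_mul, zero_mul, zero_sub, zero_smul, zero_smul, zero_add, zero_add]
    have hμ : D.μ = 0 := by
      have h1 := hfst _ (N.mul_mem_left (mkA D 0 (Pi.single ⟨0, hn⟩ 1)) (hall (Pi.single ⟨0, hn⟩ 1)))
      rw [hprod, re_mkA, single_one_dotProduct, Pi.single_eq_same, mul_one] at h1
      exact neg_eq_zero.1 h1
    let W : Submodule ℂ (Fin n → ℂ) := Submodule.span ℂ {z | ∃ x y, z = D.L x *ᵥ y}
    have hWst : ∀ g, ∀ v ∈ W, A g *ᵥ v ∈ W := by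
      intro g v hv
      have h1 : W ≤ W.comap (A g).mulVecLin := by
        rw [Submodule.span_le]
        rintro _ ⟨x, y, rfl⟩
        show A g *ᵥ (D.L x *ᵥ y) ∈ W
        rw [D.equiv]
        exact Submodule.subset_span ⟨_, _, rfl⟩
      exact h1 hv
    rcases hirr W hWst with hb | htW
    · apply D.ne
      apply LinearMap.ext
      intro x
      apply Matrix.ext_of_mulVec_single
      intro j
      have h1 : D.L x *ᵥ Pi.single j 1 ∈ W := Submodule.subset_span ⟨_, _, rfl⟩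
      rw [hb, Submodule.mem_bot] at h1
      rw [h1, LinearMap.zero_apply, zero_mulVec]
    · have hNN : N ≤ N * N := by
        intro u hu
        rw [hform u hu]
        have h1 : im u ∈ W := by rw [htW]; trivial
        generalize im u = z at h1
        induction h1 using Submodule.span_induction with
        | mem z hz =>
          obtain ⟨x, y, rfl⟩ := hz
          have h2 := Ideal.mul_mem_mul (hall x) (hall y)
          rw [hprod, hμ, zero_mul, neg_zero] at h2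
          exact h2
        | zero => exact (N * N).zero_mem
        | add a b _ _ ha hb =>
          have := (N * N).add_mem ha hb
          rw [mkA_add, add_zero] at this
          exact this
        | smul c a _ ha =>
          have := (N * N).smul_of_tower_mem c ha
          rw [smul_mkA, mul_zero] at this
          exact this
      obtain ⟨k, hk⟩ := IsArtinianRing.isNilpotent_nilradical (R := Alg D)
      rw [← hN] at hk
      have h2 : ∀ k, N ≤ N ^ (k + 1) := by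
        intro k
        induction k with
        | zero => rw [zero_add, pow_one]
        | succ k ih => 
          calc N ≤ N * N := hNN
            _ ≤ N ^ (k + 1) * N := Ideal.mul_mono_left ih
            _ = N ^ (k + 1 + 1) := (pow_succ _ _).symm
      have h3 : N = ⊥ := by
        rw [eq_bot_iff]
        calc N ≤ N ^ (k + 1) := h2 k
          _ = N ^ k * N := pow_succ _ _
          _ = ⊥ := by
            rw [hk, zero_mul]; rfl
      have h4 := hall (Pi.single ⟨0, hn⟩ 1)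
      rw [h3] at h4
      have h5 := (mkA_inj D (((Submodule.mem_bot _).1 h4).trans (mkA_zero D).symm)).2
      have h6 := congrFun h5 ⟨0, hn⟩
      rw [Pi.single_eq_same] at h6
      exact one_ne_zero h6

end red

section perm

theorem exists_hom_ne (hred : nilradical (Alg D) = ⊥) (u : Alg D) (hu : u ≠ 0) : ∃ φ : Alg D →ₐ[ℂ] ℂ, φ u ≠ 0 := by
  have h1 : u ∉ nilradical (Alg D) := by
    rw [hred]
    exact hu
  rw [nilradical_eq_sInf, Submodule.mem_sInf] at h1
  push Not at h1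
  obtain ⟨I, hI, hIu⟩ := h1
  let I : Ideal (Alg D) := I
  have hIp : I.IsPrime := hI
  have : Algebra.IsIntegral ℂ (Alg D ⧸ I) := inferInstance
  let e : ℂ ≃ₐ[ℂ] (Alg D ⧸ I) := AlgEquiv.ofBijective (Algebra.ofId ℂ (Alg D ⧸ I)) (IsAlgClosed.algebraMap_bijective_of_isIntegral)
  refine ⟨(e.symm : (Alg D ⧸ I) →ₐ[ℂ] ℂ).comp (Ideal.Quotient.mkₐ ℂ I), ?_⟩
  intro h
  apply hIu
  have h2 : e.symm (Ideal.Quotient.mkₐ ℂ I u) = 0 := h
  rw [EmbeddingLike.map_eq_zero_iff] at h2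
  exact Ideal.Quotient.eq_zero_iff_mem.1 h2

theorem exists_perm [Finite G] (hA : ∀ g, A g * (A g)ᵀ = 1) (hred : nilradical (Alg D) = ⊥) :
    ∃ (Ω : Type) (_ : Fintype Ω) (_ : MulAction G Ω), Fintype.card Ω = n + 1 ∧
      ∀ g : G, (Nat.card {ω : Ω // g • ω = ω} : ℂ) = 1 + (A g).trace := by
  classical
  let Φ := Alg D →ₐ[ℂ] ℂ
  have hli := linearIndependent_algHom_toLinearMap ℂ (Alg D) ℂ
  have hfin : Finite Φ := LinearIndependent.finite hli
  have : Fintype Φ := Fintype.ofFinite Φ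
  have hspan : ⊤ ≤ Submodule.span ℂ (Set.range (AlgHom.toLinearMap : Φ → Alg D →ₗ[ℂ] ℂ)) := by
    set W : Submodule ℂ (Module.Dual ℂ (Alg D)) := Submodule.span ℂ (Set.range (AlgHom.toLinearMap : Φ → Alg D →ₗ[ℂ] ℂ)) with hW
    have h1 : W.dualCoannihilator = ⊥ := by
      rw [eq_bot_iff]
      intro u hu
      rw [Submodule.mem_dualCoannihilator] at hu
      rw [Submodule.mem_bot]
      by_contra hne
      obtain ⟨φ, hφ⟩ := exists_hom_ne D hred u hne
      exact hφ (hu φ.toLinearMap (Submodule.subset_span ⟨φ, rfl⟩))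
    have h2 : W.dualCoannihilator.dualAnnihilator = W := Subspace.dualCoannihilator_dualAnnihilator_eq
    rw [h1, Submodule.dualAnnihilator_bot] at h2
    rw [← h2]
  let b : Module.Basis Φ ℂ (Module.Dual ℂ (Alg D)) := Module.Basis.mk hli hspan
  have hb : ∀ φ, b φ = φ.toLinearMap := fun φ => by rw [Module.Basis.mk_apply]
  let act : MulAction G Φ :=
    { smul := fun g φ => φ.comp (al D hA g⁻¹)
      one_smul := by
        intro φ
        show φ.comp (al D hA 1⁻¹) = φ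
        rw [_root_.inv_one, al_one, AlgHom.comp_id]
      mul_smul := by
        intro g h φ
        show φ.comp (al D hA (g * h)⁻¹) = (φ.comp (al D hA h⁻¹)).comp (al D hA g⁻¹)
        rw [_root_.mul_inv_rev, al_mul, AlgHom.comp_assoc] }
  have hact : ∀ (g : G) (φ : Φ), g • φ = φ.comp (al D hA g⁻¹) := fun g φ => rfl
  have hfix : ∀ g : G, (Nat.card {ω : Φ // g • ω = ω} : ℂ) = 1 + (A g).trace := by
    intro g
    let T : Module.Dual ℂ (Alg D) →ₗ[ℂ] Module.Dual ℂ (Alg D) := Module.Dual.transpose (R := ℂ) (al D hA g⁻¹).toLinearMap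
    have hT : ∀ φ, T (b φ) = b (g • φ) := by
      intro φ
      rw [hb, hb, hact]
      rfl
    have h1 : LinearMap.trace ℂ _ T = (Nat.card {ω : Φ // g • ω = ω} : ℂ) := by
      rw [LinearMap.trace_eq_matrix_trace ℂ b, Matrix.trace]
      have h2 : ∀ φ, (LinearMap.toMatrix b b T).diag φ = if g • φ = φ then 1 else 0 := by
        intro φ
        rw [Matrix.diag_apply, LinearMap.toMatrix_apply, hT, Module.Basis.repr_self, Finsupp.single_apply]
      rw [Finset.sum_congr rfl (fun φ _ => h2 φ), Finset.sum_boole, Nat.card_eq_fintype_card, Fintype.card_subtype]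
    rw [← h1]
    have h3 : LinearMap.trace ℂ _ T = LinearMap.trace ℂ (Alg D) (al D hA g⁻¹).toLinearMap := LinearMap.trace_transpose' _
    have h4 : LinearMap.trace ℂ (Alg D) (al D hA g⁻¹).toLinearMap = LinearMap.trace ℂ (ℂ × (Fin n → ℂ)) (alin A g⁻¹) := rfl
    rw [h3, h4, alin, LinearMap.trace_prodMap', LinearMap.trace_id, Module.finrank_self]
    congr 1
    · norm_num
    · have h5 : A g⁻¹ = (A g)ᵀ := by
        have h1 : A g⁻¹ * A g = 1 := by rw [← map_mul, inv_mul_cancel, map_one]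
        calc A g⁻¹ = A g⁻¹ * (A g * (A g)ᵀ) := by rw [hA, Matrix.mul_one]
          _ = (A g)ᵀ := by rw [← Matrix.mul_assoc, h1, Matrix.one_mul]
      rw [h5, LinearMap.trace_eq_matrix_trace ℂ (Pi.basisFun ℂ (Fin n))]
      have : LinearMap.toMatrix (Pi.basisFun ℂ (Fin n)) (Pi.basisFun ℂ (Fin n)) ((A g)ᵀ).mulVecLin = (A g)ᵀ :=
        LinearMap.toMatrix'_toLin' _
      rw [this, Matrix.trace_transpose]
  have hcard : Fintype.card Φ = n + 1 := by
    have h1 := hfix 1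
    rw [map_one, Matrix.trace_one, Fintype.card_fin] at h1
    have h2 : Nat.card {ω : Φ // (1 : G) • ω = ω} = Fintype.card Φ := by
      rw [← Nat.card_eq_fintype_card]
      exact Nat.card_congr (Equiv.subtypeUnivEquiv (fun ω => one_smul G ω))
    rw [h2] at h1
    have h3 : (Fintype.card Φ : ℂ) = ((n + 1 : ℕ) : ℂ) := by rw [h1]; push_cast; ring
    exact_mod_cast h3
  -- move to `Fin`
  let e : Φ ≃ Fin (n + 1) := Fintype.equivFinOfCardEq hcard
  let act2 : MulAction G (Fin (n + 1)) := 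
    { smul := fun g i => e (g • e.symm i)
      one_smul := fun i => by
        show e ((1 : G) • e.symm i) = i
        rw [one_smul, e.apply_symm_apply]
      mul_smul := fun g h i => by
        show e ((g * h) • e.symm i) = e (g • e.symm (e (h • e.symm i)))
        rw [e.symm_apply_apply, mul_smul] }
  refine ⟨Fin (n + 1), inferInstance, act2, Fintype.card_fin _, fun g => ?_⟩
  rw [← hfix g]
  congr 1
  apply Nat.card_congr
  refine e.symm.subtypeEquiv fun i => ?_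
  show e (g • e.symm i) = i ↔ _
  rw [← e.eq_symm_apply]

end perm

end Cfsg.Agent.Lib.AlgTrick
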