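import Mathlib
import Cfsg.Agent.Lib.AlgTrickC

/-!
# The algebra trick, part D: main theorem, multiple transitivity (helper7)
-/

set_option autoImplicit false
set_option linter.all false

namespace Cfsg.Agent.Lib.AlgTrick

open Cfsg Cfsg.Agent.Lib.CharBasic Cfsg.Agent.Lib.FrobSchur
open Matrix MulAction

universe u v

variable {G : Type u} [Group G] [Fintype G]

/-- An irreducible character `χ` of orthogonal type with `χ ⊂ S²χ`, `χ ⊄ Λ²χ` and `Λ²χ` irreducible comes from an action on
`n + 1` points. -/
theorem alg_trick {χ : G → ℂ} (hχ : IsIrrCharacter G χ) {n : ℕ} (hd : χ 1 = n) (hn : 2 ≤ n) (hf : fsInd χ = 1)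
    (h2 : ∑ g : G, χ g * ((χ g ^ 2 + χ (g * g)) / 2) ≠ 0)
    (h4 : ∑ g : G, χ g * ((χ g ^ 2 - χ (g * g)) / 2) = 0)
    (h3 : ∑ g : G, ((χ g ^ 2 - χ (g * g)) / 2) ^ 2 = (Nat.card G : ℂ)) :
    ∃ (Ω : Type) (_ : Fintype Ω) (_ : MulAction G Ω), Fintype.card Ω = n + 1 ∧
      ∀ g : G, (Nat.card {ω : Ω // g • ω = ω} : ℂ) = 1 + χ g := by
  obtain ⟨m, ρ, hρ, rfl⟩ := hχ
  obtain rfl : m = n := by
    rw [Representation.char_one] at hd
    have : (Module.finrank ℂ (Fin m → ℂ) : ℂ) = (m : ℂ) := by rw [Module.finrank_fin_fun]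
    rw [this] at hd
    exact_mod_cast hd
  obtain ⟨A, hA, htr, hirr⟩ := exists_orth ρ hρ hf
  obtain ⟨D⟩ := exists_prod hA (by simpa only [htr] using h2) (by simpa only [htr] using h4) (by simpa only [htr] using h3) hn
  have h0 : ∀ v : Fin m → ℂ, (∀ g, A g *ᵥ v = v) → v = 0 := by
    let U : Submodule ℂ (Fin m → ℂ) :=
      { carrier := {v | ∀ g, A g *ᵥ v = v}
        add_mem' := by
          intro a b ha hb g
          rw [mulVec_add, ha, hb]
        zero_mem' := by intro g; rw [mulVec_zero]
        smul_mem' := by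
          intro c a ha g
          rw [mulVec_smul, ha] }
    have hU : ∀ g, ∀ v ∈ U, A g *ᵥ v ∈ U := by
      intro g v hv
      rw [hv g]; exact hv
    rcases hirr U hU with h | h
    · intro v hv
      have : v ∈ U := hv
      rw [h, Submodule.mem_bot] at this
      exact this
    · exfalso
      have h1 : ∀ g, A g = 1 := by
        intro g
        apply Matrix.ext_of_mulVec_single
        intro j
        rw [one_mulVec]
        have : (Pi.single j 1 : Fin m → ℂ) ∈ U := by rw [h]; trivial
        exact this g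
      have h5 : ∀ g, ρ.character g = m := by
        intro g
        rw [← htr, h1, trace_one, Fintype.card_fin]
      simp only [h5] at h4
      rw [Finset.sum_const, Finset.card_univ, nsmul_eq_mul] at h4
      have h6 : (m : ℂ) ≠ 0 := by
        have : m ≠ 0 := by omega
        exact_mod_cast this
      have h7 : ((m : ℂ) ^ 2 - m) / 2 ≠ 0 := by
        have h8 : (m : ℂ) - 1 ≠ 0 := by
          intro h9
          have : (m : ℂ) = ((1 : ℕ) : ℂ) := by push_cast; linear_combination h9
          have : m = 1 := by exact_mod_cast this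
          omega
        have : ((m : ℂ) ^ 2 - m) / 2 = m * (m - 1) / 2 := by ring
        rw [this]
        exact div_ne_zero (mul_ne_zero h6 h8) two_ne_zero
      have h9 : (Fintype.card G : ℂ) ≠ 0 := by exact_mod_cast Fintype.card_ne_zero
      exact (mul_ne_zero h9 (mul_ne_zero h6 h7)) h4
  have hred := reduced D hA h0 hirr (by omega)
  obtain ⟨Ω, i1, i2, hc, hfx⟩ := exists_perm D hA hred
  exact ⟨Ω, i1, i2, hc, fun g => by rw [hfx, htr]⟩

/-- multiple transitivity from Burnside's lemma -/
theorem multiply_of_sum {Ω : Type v} [Fintype Ω] [MulAction G Ω] (k : ℕ)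
    (h : ∑ g : G, (Nat.card {ω : Ω // g • ω = ω}).descFactorial k = Nat.card G) : IsMultiplyPretransitive G Ω k := by
  classical
  have h1 : ∀ g : G, Fintype.card (fixedBy (Fin k ↪ Ω) g) = (Nat.card {ω : Ω // g • ω = ω}).descFactorial k := by
    intro g
    rw [Nat.card_eq_fintype_card, ← Fintype.card_fin k, Fintype.card_fin k]
    have h2 := Fintype.card_embedding_eq (α := Fin k) (β := {ω : Ω // g • ω = ω})
    rw [Fintype.card_fin] at h2
    rw [← h2]
    apply Fintype.card_congr
    refine
      { toFun := fun e => ⟨fun i => ⟨e.1 i, ?_⟩, ?_⟩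
        invFun := fun e => ⟨e.trans (Function.Embedding.subtype _), ?_⟩
        left_inv := ?_
        right_inv := ?_ }
    · exact congrFun (congrArg (fun f : Fin k ↪ Ω => (f : Fin k → Ω)) e.2) i
    · intro i j hij
      exact e.1.injective (congrArg Subtype.val hij)
    · show g • _ = _
      ext i
      exact (e i).2
    · intro e; rfl
    · intro e; rfl
  have h2 := sum_card_fixedBy_eq_card_orbits_mul_card_group G (Fin k ↪ Ω)
  rw [Finset.sum_congr rfl (fun g _ => h1 g), h, Nat.card_eq_fintype_card] at h2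
  have h3 : Fintype.card (Quotient (orbitRel G (Fin k ↪ Ω))) = 1 := by
    have : 0 < Fintype.card G := Fintype.card_pos
    nlinarith
  have h4 : Subsingleton (Quotient (orbitRel G (Fin k ↪ Ω))) := Fintype.card_le_one_iff_subsingleton.1 h3.le
  refine ⟨fun x y => ?_⟩
  have h5 : (Quotient.mk (orbitRel G (Fin k ↪ Ω)) y) = (Quotient.mk (orbitRel G (Fin k ↪ Ω)) x) := Subsingleton.elim _ _
  have h6 := Quotient.exact h5
  exact h6

end Cfsg.Agent.Lib.AlgTrick
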