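import Cfsg.Agent.Lib.AlperinDer
import Cfsg.Agent.S3781
import Cfsg.Agent.Lib.H31FPFNilp2
import Cfsg.Agent.Lib.FratRep
import Cfsg.Agent.Lib.PLength
import Mathlib

/-!
Alperin's bound for the derived length of a solvable group with an automorphism of prime order with few fixed
points (helper2).
-/

set_option autoImplicit false
open scoped commutatorElement DirectSum

namespace Cfsg.Agent.Lib.AlperinMain

open Cfsg.Agent.Lib.H72GrLie Cfsg.Agent.Lib.HigmanAlmost Cfsg.Agent.Lib.AlperinDer Cfsg

variable {G : Type*} [Group G]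

theorem card_fix_mapA_le [Finite G] (f : G →* G) (i : ℕ) :
    Nat.card {a : A G i // mapA f i a = a} ≤ Nat.card {g : G // f g = g} := by
  have h1 := card_fix_quot_le (G := ↥(Γ G i)) (resΓ f i) ((Γ G (i + 1)).subgroupOf (Γ G i))
    (MonoidHom.toAdditive.symm (mapA f i)) (fun g => rfl)
  refine le_trans ?_ (h1.trans ?_)
  · exact le_of_eq rfl
  · exact Nat.card_le_card_of_injective (fun w : {x : ↥(Γ G i) // resΓ f i x = x} =>
      (⟨w.1.1, congrArg Subtype.val w.2⟩ : {x : G // f x = x}))
      (fun a b hab => Subtype.ext (Subtype.ext (congrArg (fun z => (z.1 : G)) hab)))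

theorem nsmul_fix_mapA [Finite G] {p : ℕ} [hp : Fact p.Prime] (hG : IsPGroup p G) {n : ℕ} (f : G →* G)
    (hfix : Nat.card {g : G // f g = g} ≤ p ^ n) (i : ℕ) (a : A G i) (ha : mapA f i a = a) : p ^ n • a = 0 := by
  let F : AddSubgroup (A G i) := ((mapA f i) - AddMonoidHom.id (A G i)).ker
  have hF : ∀ b, b ∈ F ↔ mapA f i b = b := by
    intro b
    rw [AddMonoidHom.mem_ker, AddMonoidHom.sub_apply, AddMonoidHom.id_apply, sub_eq_zero]
  have hcard : Nat.card F ≤ p ^ n := by
    refine le_trans (le_of_eq ?_) ((card_fix_mapA_le f i).trans hfix)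
    exact Nat.card_congr (Equiv.subtypeEquivRight hF)
  have hQ : IsPGroup p (Q G i) := (hG.to_subgroup _).to_quotient _
  have hFp : ∃ k, Nat.card F = p ^ k := by
    have h1 : Nat.card F ∣ Nat.card (A G i) := AddSubgroup.card_addSubgroup_dvd_card F
    obtain ⟨k, hk⟩ := IsPGroup.iff_card.1 hQ
    have h2 : Nat.card (A G i) = p ^ k := hk
    rw [h2] at h1
    obtain ⟨j, _, hj⟩ := (Nat.dvd_prime_pow hp.out).1 h1
    exact ⟨j, hj⟩
  obtain ⟨k, hk⟩ := hFp
  rw [hk] at hcard
  have hkn : k ≤ n := (Nat.pow_le_pow_iff_right hp.out.one_lt).1 hcard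
  have h2 : Nat.card F • (⟨a, (hF a).2 ha⟩ : F) = 0 := card_nsmul_eq_zero'
  have h3 : p ^ k • a = 0 := by
    rw [hk] at h2
    exact congrArg Subtype.val h2
  obtain ⟨c, hc⟩ := pow_dvd_pow p hkn
  rw [hc, mul_comm, mul_smul, h3, smul_zero]

theorem nsmul_fix_mapL [Finite G] {p : ℕ} [hp : Fact p.Prime] (hG : IsPGroup p G) {n : ℕ} (f : G →* G)
    (hfix : Nat.card {g : G // f g = g} ≤ p ^ n) (x : L G) (hx : mapL f x = x) : p ^ n • x = 0 := by
  have h1 := nsmul_fix_mapA hG f hfix
  refine DFinsupp.ext (β := fun n => A G n) fun i => ?_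
  have h2 := congrArg (fun z : ⨁ n, A G n => z i) hx
  have h3 := h1 i _ ((DirectSum.map_apply (mapA f) i x).symm.trans h2)
  exact h3

theorem nsmul_factor [Finite G] {p : ℕ} [hp : Fact p.Prime] (hG : IsPGroup p G) {n : ℕ} (f : G →* G)
    (hf : ∀ g, f^[p] g = g) (hfix : Nat.card {g : G // f g = g} ≤ p ^ n) (a : A G (hh p + 1)) :
    p ^ ((n + 1) * (hh p + 1)) • a = 0 := by
  induction a using mk_ind with
  | h g =>
  have hg : (g : G) ∈ Γ G (hh p + 1) := g.2
  have h1 := lcsL_smul_eq_zero (p := p) (L := L G) (mapL f).toIntLinearMap (mapL_lie f) (N := p ^ n)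
    (fun x hx => nsmul_fix_mapL hG f hfix x hx) (mapL_iterate f p hf) (ι_mem_lcsL (hh p) hg)
  rw [← pow_succ', ← pow_mul, nsmul_ι hg, ι_eq_zero (pow_mem hg _)] at h1
  have h2 : p ^ ((n + 1) * (hh p + 1)) • (mk g : A G (hh p + 1)) = mk (g ^ p ^ ((n + 1) * (hh p + 1))) := rfl
  rw [h2, ← mk_one, mk_eq, OneMemClass.coe_one, mul_one]
  exact inv_mem h1

theorem card_factor_le [Finite G] {p : ℕ} [hp : Fact p.Prime] (hG : IsPGroup p G) {n : ℕ} (f : G →* G)
    (hf : ∀ g, f^[p] g = g) (hfix : Nat.card {g : G // f g = g} ≤ p ^ n) :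
    Nat.card (A G (hh p + 1)) ≤ p ^ (n * p * ((n + 1) * (hh p + 1))) := by
  have h := card_abelian_le hp.out (V := A G (hh p + 1)) (nsmul_factor hG f hf hfix) (mapA f (hh p + 1)) ?_
    ((card_fix_mapA_le f _).trans hfix)
  · rw [← pow_mul, ← pow_mul, ← mul_assoc] at h
    exact h
  · intro a
    have h1 : ∀ (k : ℕ) (g : ↥(Γ G (hh p + 1))), (mapA f (hh p + 1))^[k] (mk g) = mk ((resΓ f (hh p + 1))^[k] g) := by
      intro k
      induction k with
      | zero => intro g; rfl
      | succ k ih => intro g; rw [Function.iterate_succ_apply, Function.iterate_succ_apply, mapA_mk, ih]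
    have h2 : ∀ (k : ℕ) (g : ↥(Γ G (hh p + 1))), (((resΓ f (hh p + 1))^[k] g : ↥(Γ G (hh p + 1))) : G) = f^[k] g := by
      intro k
      induction k with
      | zero => intro g; rfl
      | succ k ih => intro g; rw [Function.iterate_succ_apply, Function.iterate_succ_apply, ih]; rfl
    induction a using mk_ind with
    | h g =>
    rw [h1]
    congr 1
    exact Subtype.ext (by rw [h2, hf])

theorem one_le_hh {p : ℕ} (hp : p.Prime) : 1 ≤ hh p := by
  unfold hh
  have h1 : 0 < 2 ^ (p - 1) - 1 := by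
    have : 2 ^ 1 ≤ 2 ^ (p - 1) := Nat.pow_le_pow_right (by norm_num) (by have := hp.two_le; omega)
    omega
  have h2 := Finset.single_le_sum (f := fun j => (p - 1) ^ j) (fun i _ => Nat.zero_le _) (Finset.mem_range.2 h1)
  simpa using h2

/-- the class bound for a deep term of the lower central series -/
theorem pgroup_bound {G : Type*} [Group G] [Finite G] {p : ℕ} [hp : Fact p.Prime] (hG : IsPGroup p G) {n : ℕ}
    (h : Adm p (p ^ n) G) : derivedSeries G (n * p * ((n + 1) * (hh p + 1)) + (hh p + 1)) = ⊥ := by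
  set C := n * p * ((n + 1) * (hh p + 1)) with hC
  set N := (⊤ : Subgroup G).lowerCentralSeries C with hN
  haveI : N.Characteristic := by rw [hN]; infer_instance
  obtain ⟨f, hf, hfix⟩ := h.sub hp.out.pos N
  have h1 := card_factor_le (hG.to_subgroup N) f hf hfix
  have hsub : ∀ i, N.lowerCentralSeries i = ((⊤ : Subgroup N).lowerCentralSeries i).map N.subtype := by
    intro i
    rw [Subgroup.map_lowerCentralSeries, ← MonoidHom.range_eq_map, Subgroup.range_subtype]
  have h2 : Nat.card (A N (hh p + 1)) = (N.lowerCentralSeries (hh p + 1)).relIndex (N.lowerCentralSeries (hh p)) := by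
    rw [hsub, hsub, Subgroup.relIndex_map_map_of_injective _ _ (Subgroup.subtype_injective N)]
    rfl
  have h3 : N.lowerCentralSeries (hh p + 1) = ⊥ := by
    by_contra hne
    have h4 := Cfsg.Agent.S3781.result hG (C + 1) (by omega) N (by rw [Nat.add_sub_cancel]) (hh p + 1)
      (by have := one_le_hh hp.out; omega) hne
    rw [Nat.add_sub_cancel, ← h2] at h4
    have h5 := (Nat.pow_le_pow_iff_right hp.out.one_lt).1 (h4.trans h1)
    omega
  -- derived series
  have h6 : ∀ i, derivedSeries G (C + i) ≤ N.lowerCentralSeries i := by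
    intro i
    induction i with
    | zero => rw [add_zero, Subgroup.lowerCentralSeries_zero]; exact Subgroup.derived_le_lower_central C
    | succ i ih =>
      rw [← add_assoc, derivedSeries_succ, Subgroup.lowerCentralSeries_succ]
      exact Subgroup.commutator_mono ih (ih.trans (Subgroup.lowerCentralSeries_antitone N (Nat.zero_le i)))
  rw [eq_bot_iff, ← h3]
  exact h6 _

/-- the Frattini quotient -/
theorem frattini_index_le {G : Type*} [Group G] [Finite G] {p : ℕ} [hp : Fact p.Prime] (hG : IsPGroup p G) {q : ℕ}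
    (h : Adm p q G) : (frattini G).index ≤ q ^ p := by
  haveI : (frattini G).Characteristic := frattini_characteristic
  obtain ⟨f, hf, hfix⟩ := h.quot hp.out.pos (frattini G)
  have hcomm : ∀ a b : G ⧸ frattini G, a * b = b * a := by
    intro a b
    obtain ⟨a, rfl⟩ := QuotientGroup.mk'_surjective _ a
    obtain ⟨b, rfl⟩ := QuotientGroup.mk'_surjective _ b
    rw [← commutatorElement_eq_one_iff_mul_comm, ← map_commutatorElement]
    apply (QuotientGroup.eq_one_iff _).mpr
    exact HBBasic.commutator_le_frattini hG (Subgroup.commutator_mem_commutator (Subgroup.mem_top _) (Subgroup.mem_top _))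
  letI cg : CommGroup (G ⧸ frattini G) := { (inferInstance : Group (G ⧸ frattini G)) with mul_comm := hcomm }
  have hE : ∀ x : G ⧸ frattini G, x ^ p = 1 := by
    intro x
    obtain ⟨x, rfl⟩ := QuotientGroup.mk'_surjective _ x
    rw [← map_pow]
    exact (QuotientGroup.eq_one_iff _).mpr (HBBasic.pow_mem_frattini hG x)
  have h1 := card_elem_le hp.out (W := Additive (G ⧸ frattini G)) (fun w => hE w.toMul) (MonoidHom.toAdditive f)
    (fun w => hf w.toMul)
  rw [Subgroup.index_eq_card]
  exact h1.trans (Nat.pow_le_pow_left hfix p)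

universe u

open FratRep in
theorem main {p : ℕ} [hp : Fact p.Prime] {n : ℕ} (G : Type u) [Group G] [Finite G] [hs : Group.IsSolvable G]
    (f : G →* G) (hf : ∀ g, f^[p] g = g) (hfix : Nat.card {g : G // f g = g} = p ^ n) :
    derivedSeries G ((((p ^ n) ^ p) ^ ((p ^ n) ^ p) + (n * p * ((n + 1) * (hh p + 1)) + (hh p + 1))) + hh p) = ⊥ := by
  -- the p'-core
  set K := pPrimeCore p G with hK
  haveI hKc : K.Characteristic := by rw [hK]; exact Cfsg.Agent.Lib.Cores.pPrimeCore_characteristic p G
  have hKp : (Nat.card K).Coprime p := Cfsg.Agent.Lib.Cores.coprime_card_pPrimeCore p G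
  have hKd : derivedSeries K (hh p) = ⊥ := by
    have h1 : ∀ x ∈ K, f x ∈ K := fun x hx => char_map_mem f hp.out.pos hf K hx
    set f' := res f K h1 with hf'
    have hf'p : ∀ x, f'^[p] x = x := fun x => Subtype.ext (by rw [hf', res_iterate, hf])
    have hfpf : ∀ x : K, f' x = x → x = 1 := by
      intro x hx
      have h2 : f x = x := congrArg Subtype.val hx
      let F : Subgroup G := MonoidHom.eqLocus f (MonoidHom.id G)
      have h3 : Nat.card F = p ^ n := by rw [← hfix]; rfl
      have h4 : (x : G) ^ (p ^ n) = 1 := by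
        have h5 : (⟨x, h2⟩ : F) ^ Nat.card F = 1 := pow_card_eq_one'
        rw [h3] at h5
        exact congrArg Subtype.val h5
      have h6 : x ^ (p ^ n) = 1 := Subtype.ext h4
      have h7 := orderOf_dvd_of_pow_eq_one h6
      have h8 := orderOf_dvd_natCard x
      rw [← orderOf_eq_one_iff]
      exact Nat.eq_one_of_dvd_coprimes (Nat.Coprime.pow_right n hKp) h8 h7
    haveI : Group.IsNilpotent K := Cfsg.Agent.Lib.H31FPFNilp2.isNilpotent hp.out (toAut f' hp.out.pos hf'p)
      (fun g h => hfpf g h) (toAut_pow f' hp.out.pos hf'p)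
    have h2 := (H72GrLie.main (p := p) f' hfpf hf'p hKp).1
    rw [eq_bot_iff, ← h2]
    exact Subgroup.derived_le_lower_central _
  apply derivedSeries_ext K _ hKd
  -- the quotient
  have hA : Adm p (p ^ n) (G ⧸ K) := Adm.quot hp.out.pos ⟨f, hf, hfix.le⟩ K
  have hO : pPrimeCore p (G ⧸ K) = ⊥ := Cfsg.Agent.Lib.Cores.pPrimeCore_quotient_pPrimeCore p G
  set H := G ⧸ K with hH
  haveI hQc : (pCore p H).Characteristic := Cfsg.Agent.Lib.PCoreTools.pCore_characteristic p H
  have hQp : IsPGroup p (pCore p H) := Cfsg.Agent.Lib.H32Cores.pCore_isPGroup p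
  have hQA := hA.sub hp.out.pos (pCore p H)
  apply derivedSeries_ext (pCore p H) _ (pgroup_bound hQp hQA)
  obtain ⟨V, _, _, _, ⟨D⟩⟩ := exists_data (p := p) (pCore p H) inferInstance hQp
  obtain ⟨σ, hσ, -⟩ := D.exists_quot Cfsg.Agent.Lib.PLength.isPSolvable_of_isSolvable hO
  apply derivedSeries_card
  -- the order of `V`
  have hVc : Nat.card V ≤ (p ^ n) ^ p := by
    refine le_trans ?_ (frattini_index_le hQp hQA)
    let g : pCore p H →* Multiplicative V :=
      { toFun := fun a => Multiplicative.ofAdd (D.π a)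
        map_one' := by rw [D.map_one]; rfl
        map_mul' := fun a b => by rw [D.map_mul]; rfl }
    have hg : Function.Surjective g := fun v => by
      obtain ⟨a, ha⟩ := D.surj v.toAdd
      exact ⟨a, congrArg Multiplicative.ofAdd ha⟩
    have hk : g.ker = frattini (pCore p H) := by
      ext a
      rw [MonoidHom.mem_ker, ← D.map_eq_zero a]
      exact Iff.rfl
    rw [← hk, Subgroup.index_ker, MonoidHom.range_eq_top.mpr hg, Subgroup.card_top]
    exact le_of_eq rfl
  have h1 : Nat.card (H ⧸ pCore p H) ≤ Nat.card (V → V) :=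
    Nat.card_le_card_of_injective (fun x => (σ x : V → V)) (fun a b hab => hσ (LinearMap.ext fun v => congrFun hab v))
  rw [Nat.card_fun] at h1
  refine h1.trans ((Nat.pow_le_pow_left hVc _).trans (Nat.pow_le_pow_right (Nat.pos_of_ne_zero ?_) hVc))
  exact pow_ne_zero _ (pow_ne_zero _ hp.out.ne_zero)

end Cfsg.Agent.Lib.AlperinMain
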