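import Mathlib

/-! Symplectic bases for alternating forms over an arbitrary field (helper13). -/

set_option autoImplicit false

namespace Cfsg.Agent.Lib.AltBasis

open Module Submodule

variable {F V : Type*} [Field F] [AddCommGroup V] [Module F V]

/-- families adapted to an alternating form on a subspace `W` -/
theorem exists_family [FiniteDimensional F V] (B : LinearMap.BilinForm F V) (hA : B.IsAlt) :
    ∀ (n : ℕ) (W : Submodule F V), finrank F W = n →
      ∃ (m k : ℕ) (e f : Fin m → V) (g : Fin k → V), 2 * m + k = n ∧ (∀ i, e i ∈ W) ∧ (∀ i, f i ∈ W) ∧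
        (∀ i, g i ∈ W) ∧ (∀ i j, B (e i) (f j) = if i = j then 1 else 0) ∧
        (∀ i j, B (e i) (e j) = 0) ∧ (∀ i j, B (f i) (f j) = 0) ∧ (∀ j, ∀ w ∈ W, B (g j) w = 0) ∧
        W ≤ span F (Set.range e ∪ Set.range f ∪ Set.range g) := by
  intro n
  induction n using Nat.strong_induction_on with
  | _ n ih =>
    intro W hW
    by_cases h0 : ∀ x ∈ W, ∀ y ∈ W, B x y = 0
    · let b := finBasis F W
      refine ⟨0, finrank F W, Fin.elim0, Fin.elim0, fun i => (b i : V), by omega, fun i => i.elim0,
        fun i => i.elim0, fun i => (b i).2, fun i => i.elim0, fun i => i.elim0, fun i => i.elim0,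
        fun j w hw => h0 _ (b j).2 w hw, ?_⟩
      intro w hw
      have h1 : (⟨w, hw⟩ : W) ∈ span F (Set.range b) := by rw [b.span_eq]; trivial
      have h2 : w ∈ (span F (Set.range b)).map W.subtype := ⟨⟨w, hw⟩, h1, rfl⟩
      rw [Submodule.map_span, ← Set.range_comp] at h2
      exact span_mono (fun x hx => Or.inr hx) h2
    · push Not at h0
      obtain ⟨x, hx, y0, hy0, hxy0⟩ := h0
      set y := (B x y0)⁻¹ • y0 with hydef
      have hy : y ∈ W := W.smul_mem _ hy0
      have hxy : B x y = 1 := by rw [hydef, map_smul, smul_eq_mul, inv_mul_cancel₀ hxy0]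
      have hyx : B y x = -1 := by rw [← LinearMap.IsAlt.neg hA x y, hxy]
      let T : W →ₗ[F] F × F := ((B x).comp W.subtype).prod ((B y).comp W.subtype)
      have hTsurj : Function.Surjective T := by
        rintro ⟨a, b⟩
        refine ⟨a • ⟨y, hy⟩ - b • ⟨x, hx⟩, ?_⟩
        rw [map_sub, map_smul, map_smul]
        show a • (B x y, B y y) - b • (B x x, B y x) = (a, b)
        rw [hxy, hyx, hA x, hA y]
        ext <;> simp
      have hker : finrank F (LinearMap.ker T) + 2 = n := by
        have h1 := LinearMap.finrank_range_add_finrank_ker T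
        rw [LinearMap.range_eq_top.2 hTsurj, finrank_top, hW] at h1
        have h2 : finrank F (F × F) = 2 := by simp
        omega
      let W' : Submodule F V := (LinearMap.ker T).map W.subtype
      have hW' : finrank F W' = n - 2 := by
        have : finrank F W' = finrank F (LinearMap.ker T) :=
          Submodule.finrank_map_subtype_eq W (LinearMap.ker T)
        omega
      have hmem : ∀ w, w ∈ W' ↔ w ∈ W ∧ B x w = 0 ∧ B y w = 0 := by
        intro w
        constructor
        · rintro ⟨v, hv, rfl⟩
          have h1 : T v = 0 := hv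
          have h2 : (B x (v : V), B y (v : V)) = ((0 : F), (0 : F)) := h1
          exact ⟨v.2, congrArg Prod.fst h2, congrArg Prod.snd h2⟩
        · rintro ⟨h1, h2, h3⟩
          refine ⟨⟨w, h1⟩, ?_, rfl⟩
          show (B x w, B y w) = ((0 : F), (0 : F))
          rw [h2, h3]
      obtain ⟨m, k, e, f, g, hmk, he, hf, hg, hef, hee, hff, hgw, hspan⟩ := ih (n - 2) (by omega) W' hW'
      refine ⟨m + 1, k, Fin.cons x e, Fin.cons y f, g, by omega, ?_, ?_, ?_, ?_, ?_, ?_, ?_, ?_⟩
      · intro i
        refine Fin.cases ?_ (fun i => ?_) i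
        · exact hx
        · exact ((hmem _).1 (he i)).1
      · intro i
        refine Fin.cases ?_ (fun i => ?_) i
        · exact hy
        · exact ((hmem _).1 (hf i)).1
      · intro i
        exact ((hmem _).1 (hg i)).1
      · intro i j
        refine Fin.cases ?_ (fun i => ?_) i <;> refine Fin.cases ?_ (fun j => ?_) j
        · simp [hxy]
        · rw [Fin.cons_zero, Fin.cons_succ, ((hmem _).1 (hf j)).2.1, if_neg (Fin.succ_ne_zero j).symm]
        · rw [Fin.cons_zero, Fin.cons_succ, ← LinearMap.IsAlt.neg hA y (e i), ((hmem _).1 (he i)).2.2,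
            neg_zero, if_neg (Fin.succ_ne_zero i)]
        · rw [Fin.cons_succ, Fin.cons_succ, hef i j]
          simp [Fin.succ_inj]
      · intro i j
        refine Fin.cases ?_ (fun i => ?_) i <;> refine Fin.cases ?_ (fun j => ?_) j
        · simp [hA x]
        · rw [Fin.cons_zero, Fin.cons_succ, ((hmem _).1 (he j)).2.1]
        · rw [Fin.cons_zero, Fin.cons_succ, ← LinearMap.IsAlt.neg hA x (e i), ((hmem _).1 (he i)).2.1,
            neg_zero]
        · rw [Fin.cons_succ, Fin.cons_succ, hee i j]
      · intro i j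
        refine Fin.cases ?_ (fun i => ?_) i <;> refine Fin.cases ?_ (fun j => ?_) j
        · simp [hA y]
        · rw [Fin.cons_zero, Fin.cons_succ, ((hmem _).1 (hf j)).2.2]
        · rw [Fin.cons_zero, Fin.cons_succ, ← LinearMap.IsAlt.neg hA y (f i), ((hmem _).1 (hf i)).2.2,
            neg_zero]
        · rw [Fin.cons_succ, Fin.cons_succ, hff i j]
      · intro j w hw
        have h1 : w - (B x w) • y + (B y w) • x ∈ W' := by
          rw [hmem]
          refine ⟨W.add_mem (W.sub_mem hw (W.smul_mem _ hy)) (W.smul_mem _ hx), ?_, ?_⟩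
          · simp [hxy, hA x]
          · simp [hyx, hA y]
        have h2 := hgw j _ h1
        have h3 : B (g j) x = 0 := by
          rw [← LinearMap.IsAlt.neg hA x (g j), ((hmem _).1 (hg j)).2.1, neg_zero]
        have h4 : B (g j) y = 0 := by
          rw [← LinearMap.IsAlt.neg hA y (g j), ((hmem _).1 (hg j)).2.2, neg_zero]
        simpa [h3, h4] using h2
      · intro w hw
        have h1 : w - (B x w) • y + (B y w) • x ∈ W' := by
          rw [hmem]
          refine ⟨W.add_mem (W.sub_mem hw (W.smul_mem _ hy)) (W.smul_mem _ hx), ?_, ?_⟩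
          · simp [hxy, hA x]
          · simp [hyx, hA y]
        have h2 := hspan h1
        set S : Set V := Set.range (Fin.cons x e : Fin (m + 1) → V) ∪ Set.range (Fin.cons y f : Fin (m + 1) → V) ∪ Set.range g with hS
        have hmono : span F (Set.range e ∪ Set.range f ∪ Set.range g) ≤ span F S := by
          apply span_mono
          rintro v ((⟨i, rfl⟩ | ⟨i, rfl⟩) | ⟨i, rfl⟩)
          · left; left; exact ⟨i.succ, by simp⟩
          · left; right; exact ⟨i.succ, by simp⟩
          · right; exact ⟨i, rfl⟩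
        have hxS : x ∈ span F S := subset_span (Or.inl (Or.inl ⟨0, by simp⟩))
        have hyS : y ∈ span F S := subset_span (Or.inl (Or.inr ⟨0, by simp⟩))
        have h3 : w = (w - (B x w) • y + (B y w) • x) + (B x w) • y - (B y w) • x := by abel
        rw [h3]
        exact sub_mem (add_mem (hmono h2) (smul_mem _ _ hyS)) (smul_mem _ _ hxS)

/-- symplectic basis for an alternating form on the whole space -/
theorem exists_basis [FiniteDimensional F V] (B : LinearMap.BilinForm F V) (hA : B.IsAlt) :
    ∃ (m k : ℕ) (b : Basis ((Fin m ⊕ Fin m) ⊕ Fin k) F V),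
      (∀ i j : Fin m, B (b (Sum.inl (Sum.inl i))) (b (Sum.inl (Sum.inr j))) = if i = j then 1 else 0) ∧
      (∀ i j : Fin m, B (b (Sum.inl (Sum.inl i))) (b (Sum.inl (Sum.inl j))) = 0) ∧
      (∀ i j : Fin m, B (b (Sum.inl (Sum.inr i))) (b (Sum.inl (Sum.inr j))) = 0) ∧
      (∀ (j : Fin k) (v : V), B (b (Sum.inr j)) v = 0) := by
  obtain ⟨m, k, e, f, g, hmk, -, -, -, hef, hee, hff, hg, hspan⟩ :=
    exists_family B hA (finrank F V) ⊤ (finrank_top F V)
  let w : (Fin m ⊕ Fin m) ⊕ Fin k → V := Sum.elim (Sum.elim e f) g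
  have hw : ⊤ ≤ span F (Set.range w) := by
    have : Set.range w = Set.range e ∪ Set.range f ∪ Set.range g := by
      rw [Set.Sum.elim_range, Set.Sum.elim_range]
    rw [this]
    exact hspan
  have hcard : Fintype.card ((Fin m ⊕ Fin m) ⊕ Fin k) = finrank F V := by
    simp only [Fintype.card_sum, Fintype.card_fin]
    omega
  refine ⟨m, k, basisOfTopLeSpanOfCardEqFinrank w hw hcard, ?_, ?_, ?_, ?_⟩ <;>
    simp only [coe_basisOfTopLeSpanOfCardEqFinrank]
  · exact hef
  · exact hee
  · exact hff
  · exact fun j v => hg j v trivial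

end Cfsg.Agent.Lib.AltBasis
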