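import Mathlib.GroupTheory.SpecificGroups.Alternating
import Mathlib.GroupTheory.Perm.Cycle.Type
import Mathlib.Data.Nat.Choose.Factorization
import Mathlib.Tactic

/-! Elementary facts on element orders and the order of the alternating groups. -/

set_option autoImplicit false

namespace Cfsg.Agent.Lib.AltSpectrum

theorem prime_dvd_lcm {p : ℕ} (hp : p.Prime) (s : Multiset ℕ) (h : p ∣ s.lcm) : ∃ c ∈ s, p ∣ c := by
  have h1 : s.lcm ∣ s.prod := Multiset.lcm_dvd.2 (fun c hc => Multiset.dvd_prod hc)
  exact (Nat.Prime.prime hp).exists_mem_multiset_dvd (h.trans h1)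

theorem add_le_sum {s : Multiset ℕ} {c d : ℕ} (hc : c ∈ s) (hd : d ∈ s) (hcd : c ≠ d) : c + d ≤ s.sum := by
  obtain ⟨t, rfl⟩ := Multiset.exists_cons_of_mem hc
  have hd' : d ∈ t := by
    rcases Multiset.mem_cons.1 hd with h | h
    · exact absurd h.symm hcd
    · exact h
  rw [Multiset.sum_cons]
  exact Nat.add_le_add_left (Multiset.single_le_sum (fun _ _ => Nat.zero_le _) d hd') c

/-- if `p ≠ q` are primes dividing the order of a permutation of degree `n` then `p + q ≤ n`. -/
theorem add_le_of_dvd_orderOf {n p q : ℕ} (hp : p.Prime) (hq : q.Prime) (hpq : p ≠ q) (g : Equiv.Perm (Fin n))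
    (h1 : p ∣ orderOf g) (h2 : q ∣ orderOf g) : p + q ≤ n := by
  rw [← Equiv.Perm.lcm_cycleType] at h1 h2
  obtain ⟨c, hc, hpc⟩ := prime_dvd_lcm hp _ h1
  obtain ⟨d, hd, hqd⟩ := prime_dvd_lcm hq _ h2
  have hsum : g.cycleType.sum ≤ n := by
    rw [Equiv.Perm.sum_cycleType]
    exact (Finset.card_le_univ _).trans (by simp)
  have hpos : ∀ e ∈ g.cycleType, 0 < e := fun e he => lt_of_lt_of_le (by norm_num) (Equiv.Perm.two_le_of_mem_cycleType he)
  by_cases hcd : c = d
  · subst hcd
    have h3 : p * q ∣ c := Nat.Coprime.mul_dvd_of_dvd_of_dvd ((Nat.coprime_primes hp hq).2 hpq) hpc hqd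
    have h4 : p * q ≤ c := Nat.le_of_dvd (hpos c hc) h3
    have h5 : c ≤ g.cycleType.sum := Multiset.single_le_sum (fun _ _ => Nat.zero_le _) c hc
    have h6 : p + q ≤ p * q := by
      have := hp.two_le
      have := hq.two_le
      nlinarith
    omega
  · have h3 := add_le_sum hc hd hcd
    have h4 := Nat.le_of_dvd (hpos c hc) hpc
    have h5 := Nat.le_of_dvd (hpos d hd) hqd
    omega

theorem two_mul_card {n : ℕ} (hn : 2 ≤ n) : 2 * Nat.card (alternatingGroup (Fin n)) = n.factorial := by
  have : Nontrivial (Fin n) := Fin.nontrivial_iff_two_le.2 hn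
  rw [two_mul_nat_card_alternatingGroup, Nat.card_perm, Nat.card_fin]

theorem prime_dvd_card {n p : ℕ} (hp : p.Prime) (h2 : 2 < p) (hpn : p ≤ n) :
    p ∣ Nat.card (alternatingGroup (Fin n)) := by
  have h := two_mul_card (n := n) (by omega)
  have h1 : p ∣ 2 * Nat.card (alternatingGroup (Fin n)) := by
    rw [h]; exact (Nat.Prime.dvd_factorial hp).2 hpn
  rcases (Nat.Prime.dvd_mul hp).1 h1 with h3 | h3
  · exact absurd (Nat.le_of_dvd (by norm_num) h3) (by omega)
  · exact h3

theorem factorization_factorial_eq_one {n p : ℕ} (hp : p.Prime) (hn : n < 2 * p) (hpn : p ≤ n) :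
    n.factorial.factorization p = 1 := by
  obtain ⟨k, rfl⟩ : ∃ k, n = p + k := ⟨n - p, by omega⟩
  have hk : k < p := by omega
  have h1 := Nat.factorization_factorial_mul (n := 1) hp
  -- (p + k)! = p! * ∏ ...
  have h2 : (p + k).factorial.factorization p = p.factorial.factorization p := by
    have hdesc : (p + k).factorial = p.factorial * (p + 1).ascFactorial k := (Nat.factorial_mul_ascFactorial p k).symm
    rw [hdesc, Nat.factorization_mul (Nat.factorial_ne_zero _) (by
      intro h
      rw [h, mul_zero] at hdesc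
      exact Nat.factorial_ne_zero _ hdesc)]
    have h3 : ((p + 1).ascFactorial k).factorization p = 0 := by
      apply Nat.factorization_eq_zero_of_not_dvd
      intro hdiv
      rw [Nat.ascFactorial_eq_prod_range] at hdiv
      obtain ⟨i, hi, hpi⟩ := (Prime.dvd_finset_prod_iff hp.prime _).1 hdiv
      rw [Finset.mem_range] at hi
      have : p ∣ i + 1 := by
        have := (Nat.dvd_add_right (dvd_refl p)).1 (show p ∣ p + (i + 1) by
          have e : p + 1 + i = p + (i + 1) := by ring
          rwa [e] at hpi)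
        exact this
      have := Nat.le_of_dvd (by omega) this
      omega
    simp [h3]
  rw [h2]
  simpa using h1

theorem sq_not_dvd_card {n p : ℕ} (hp : p.Prime) (h2 : 2 < p) (hn : n < 2 * p) (hpn : p ≤ n) :
    ¬ p ^ 2 ∣ Nat.card (alternatingGroup (Fin n)) := by
  intro h
  have h1 := two_mul_card (n := n) (by omega)
  have h3 : p ^ 2 ∣ n.factorial := by rw [← h1]; exact h.mul_left 2
  have h4 := (Nat.Prime.pow_dvd_iff_le_factorization hp (Nat.factorial_ne_zero n)).1 h3
  rw [factorization_factorial_eq_one hp hn hpn] at h4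
  omega

end Cfsg.Agent.Lib.AltSpectrum
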