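import Mathlib

/-!
Matrix units: every system of matrix units in `Matrix ι ι F` is conjugate to a standard one (with multiplicity).
Consequences: Skolem-Noether for full matrix algebras, conjugacy of embeddings.
-/

set_option autoImplicit false

namespace Cfsg.Agent.Lib.AschMU

open scoped Matrix Kronecker MatrixGroups

variable {ι : Type} [Fintype ι] [DecidableEq ι] {F : Type*} [Field F]

/-- A system of matrix units. -/
structure IsMatrixUnits {κ : Type} [Fintype κ] [DecidableEq κ] {R : Type*} [Ring R] (E : κ → κ → R) : Prop where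
  mul : ∀ a b c d, E a b * E c d = if b = c then E a d else 0
  one : ∑ a, E a a = 1

theorem exists_conj_of_matrixUnits_aux {κ : Type} [Fintype κ] [DecidableEq κ] [Nonempty κ]
    {E : κ → κ → Matrix ι ι F} (hE : IsMatrixUnits E) :
    ∃ e : ℕ, Fintype.card ι = Fintype.card κ * e ∧ ∀ σ : ι ≃ κ × Fin e, ∃ (P : GL ι F), ∀ a b,
      E a b * (P : Matrix ι ι F) = (P : Matrix ι ι F) *
        (Matrix.reindex σ.symm σ.symm (Matrix.single a b (1 : F) ⊗ₖ (1 : Matrix (Fin e) (Fin e) F))) := by
  classical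
  obtain ⟨o⟩ := ‹Nonempty κ›
  set W : Submodule F (ι → F) := LinearMap.range (Matrix.toLin' (E o o)) with hW
  set e := Module.finrank F W with he
  let v : Module.Basis (Fin e) F W := Module.finBasis F W
  have hv : ∀ w ∈ W, E o o *ᵥ w = w := by
    rintro w ⟨x, rfl⟩
    rw [Matrix.toLin'_apply, Matrix.mulVec_mulVec, hE.mul, if_pos rfl]
  let u : κ × Fin e → (ι → F) := fun p => E p.1 o *ᵥ (v p.2 : ι → F)
  have hEu : ∀ a b p, E a b *ᵥ u p = if b = p.1 then u (a, p.2) else 0 := by
    intro a b p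
    simp only [u]
    rw [Matrix.mulVec_mulVec, hE.mul]
    split_ifs with h
    · rfl
    · exact Matrix.zero_mulVec _
  have hli : LinearIndependent F u := by
    rw [Fintype.linearIndependent_iff]
    intro g hg p
    have h1 : E o p.1 *ᵥ (∑ x, g x • u x) = 0 := by rw [hg, Matrix.mulVec_zero]
    rw [Matrix.mulVec_sum] at h1
    simp only [Matrix.mulVec_smul, hEu] at h1
    have h2 : ∑ x : κ × Fin e, g x • (if p.1 = x.1 then u (o, x.2) else 0)
        = ∑ c : Fin e, g (p.1, c) • (v c : ι → F) := by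
      rw [Fintype.sum_prod_type]
      rw [Finset.sum_eq_single p.1]
      · apply Finset.sum_congr rfl
        intro c _
        simp only [if_true]
        simp only [u]
        rw [hv _ (v c).2]
      · intro b _ hb
        apply Finset.sum_eq_zero
        intro c _
        rw [if_neg (Ne.symm hb), smul_zero]
      · intro h; exact absurd (Finset.mem_univ _) h
    rw [h2] at h1
    have h3 : ∑ c : Fin e, g (p.1, c) • v c = 0 := by
      apply Subtype.ext
      push_cast
      exact h1
    have := Fintype.linearIndependent_iff.1 v.linearIndependent (fun c => g (p.1, c)) h3 p.2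
    simpa using this
  have hsp : ⊤ ≤ Submodule.span F (Set.range u) := by
    intro x _
    have hx : x = ∑ a, E a o *ᵥ (E o a *ᵥ x) := by
      simp_rw [Matrix.mulVec_mulVec, hE.mul, if_true]
      rw [← Matrix.sum_mulVec, hE.one, Matrix.one_mulVec]
    rw [hx]
    refine Submodule.sum_mem _ fun a _ => ?_
    have hmem : E o a *ᵥ x ∈ W := ⟨E o a *ᵥ x, by
      rw [Matrix.toLin'_apply, Matrix.mulVec_mulVec, hE.mul, if_pos rfl]⟩
    have h4 := v.sum_repr ⟨E o a *ᵥ x, hmem⟩
    have h5 : E o a *ᵥ x = ∑ c, v.repr ⟨E o a *ᵥ x, hmem⟩ c • (v c : ι → F) := by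
      have := congrArg (Subtype.val) h4
      push_cast at this
      exact this.symm
    rw [h5, Matrix.mulVec_sum]
    refine Submodule.sum_mem _ fun c _ => ?_
    rw [Matrix.mulVec_smul]
    exact Submodule.smul_mem _ _ (Submodule.subset_span ⟨(a, c), rfl⟩)
  let b : Module.Basis (κ × Fin e) F (ι → F) := Module.Basis.mk hli hsp
  have hb : ∀ p, b p = u p := fun p => by simp [b]
  refine ⟨e, ?_, fun σ => ?_⟩
  · have h1 := Fintype.card_congr ((Pi.basisFun F ι).indexEquiv b)
    rw [h1, Fintype.card_prod, Fintype.card_fin]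
  let b' : Module.Basis ι F (ι → F) := b.reindex σ.symm
  let _ := (Pi.basisFun F ι).invertibleToMatrix b'
  let P : GL ι F := unitOfInvertible ((Pi.basisFun F ι).toMatrix b')
  have hP : ∀ i j, (P : Matrix ι ι F) i j = u (σ j) i := by
    intro i j
    simp only [P, val_unitOfInvertible, Module.Basis.toMatrix_apply, Pi.basisFun_repr, b',
      Module.Basis.reindex_apply, Equiv.symm_symm, hb]
  refine ⟨P, fun a c => ?_⟩
  ext i j
  have hcol : (fun i => (P : Matrix ι ι F) i j) = u (σ j) := funext fun i => hP i j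
  have hL : (E a c * (P : Matrix ι ι F)) i j = (E a c *ᵥ u (σ j)) i := by
    rw [← hcol]; rfl
  rw [hL, hEu, Matrix.mul_apply]
  have hR : ∀ x, (P : Matrix ι ι F) i x * (Matrix.reindex σ.symm σ.symm
      (Matrix.single a c (1 : F) ⊗ₖ (1 : Matrix (Fin e) (Fin e) F))) x j
      = if x = σ.symm (a, (σ j).2) then (if c = (σ j).1 then u (a, (σ j).2) i else 0) else 0 := by
    intro x
    rw [hP]
    simp only [Matrix.reindex_apply, Equiv.symm_symm, Matrix.submatrix_apply, Matrix.kroneckerMap_apply,
      Matrix.single_apply, Matrix.one_apply]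
    by_cases h1 : x = σ.symm (a, (σ j).2)
    · subst h1
      simp
    · rw [if_neg h1]
      have h2 : ¬ (a = (σ x).1 ∧ (σ x).2 = (σ j).2) := by
        rintro ⟨h3, h4⟩
        apply h1
        rw [Equiv.eq_symm_apply]
        exact Prod.ext h3.symm h4
      by_cases h3 : a = (σ x).1
      · have h4 : (σ x).2 ≠ (σ j).2 := fun h => h2 ⟨h3, h⟩
        rw [if_neg h4]; simp
      · have : ¬ (a = (σ x).1 ∧ c = (σ j).1) := fun h => h3 h.1
        rw [if_neg this]; simp
  simp_rw [hR]
  rw [Finset.sum_ite_eq' Finset.univ (σ.symm (a, (σ j).2))]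
  simp only [Finset.mem_univ, if_true]
  split_ifs <;> rfl

/-- The multiplicity exists. -/
theorem card_of_matrixUnits {κ : Type} [Fintype κ] [DecidableEq κ] [Nonempty κ]
    {E : κ → κ → Matrix ι ι F} (hE : IsMatrixUnits E) : ∃ e : ℕ, Fintype.card ι = Fintype.card κ * e := by
  obtain ⟨e, he, -⟩ := exists_conj_of_matrixUnits_aux hE
  exact ⟨e, he⟩

/-- Every system of matrix units is conjugate to the standard one, for a given identification of index sets. -/
theorem exists_conj_of_matrixUnits {κ : Type} [Fintype κ] [DecidableEq κ] [Nonempty κ]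
    {E : κ → κ → Matrix ι ι F} (hE : IsMatrixUnits E) {e : ℕ} (σ : ι ≃ κ × Fin e) :
    ∃ (P : GL ι F), ∀ a b,
      E a b * (P : Matrix ι ι F) = (P : Matrix ι ι F) *
        (Matrix.reindex σ.symm σ.symm (Matrix.single a b (1 : F) ⊗ₖ (1 : Matrix (Fin e) (Fin e) F))) := by
  obtain ⟨e', he', h⟩ := exists_conj_of_matrixUnits_aux hE
  have h2 : e' = e := by
    have h1 := Fintype.card_congr σ
    rw [Fintype.card_prod, Fintype.card_fin, he'] at h1
    exact Nat.eq_of_mul_eq_mul_left Fintype.card_pos h1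
  subst h2
  exact h σ

/-- Multiplicity-free case: same number of indices. -/
theorem exists_conj_of_matrixUnits' {E : ι → ι → Matrix ι ι F} (hE : IsMatrixUnits E) :
    ∃ (P : GL ι F), ∀ a b, E a b * (P : Matrix ι ι F) = (P : Matrix ι ι F) * Matrix.single a b (1 : F) := by
  rcases isEmpty_or_nonempty ι with hι | hι
  · exact ⟨1, fun a => (hι.false a).elim⟩
  obtain ⟨P, hP⟩ := exists_conj_of_matrixUnits hE (e := 1) (Equiv.prodUnique ι (Fin 1)).symm
  refine ⟨P, fun a b => ?_⟩
  rw [hP]
  congr 1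
  ext i j
  simp [Matrix.single_apply]

theorem isMatrixUnits_single (ι : Type) [Fintype ι] [DecidableEq ι] (R : Type*) [Ring R] :
    IsMatrixUnits (fun a b : ι => (Matrix.single a b (1 : R) : Matrix ι ι R)) where
  mul a b c d := by
    by_cases h : b = c
    · subst h; simp
    · rw [if_neg h]; exact Matrix.single_mul_single_of_ne _ _ _ _ h _
  one := by
    ext i j
    rw [Matrix.sum_apply, Matrix.one_apply]
    simp only [Matrix.single_apply]
    by_cases h : i = j
    · subst h
      rw [if_pos rfl, Finset.sum_eq_single i]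
      · simp
      · intro b _ hb; rw [if_neg]; rintro ⟨h, -⟩; exact hb h
      · intro h; exact absurd (Finset.mem_univ _) h
    · rw [if_neg h]
      apply Finset.sum_eq_zero
      intro x _
      rw [if_neg]
      rintro ⟨rfl, rfl⟩; exact h rfl

theorem IsMatrixUnits.map {κ : Type} [Fintype κ] [DecidableEq κ] {R S : Type*} [Ring R] [Ring S] {E : κ → κ → R}
    (hE : IsMatrixUnits E) (φ : R →+* S) : IsMatrixUnits (fun a b => φ (E a b)) where
  mul a b c d := by
    show φ (E a b) * φ (E c d) = if b = c then φ (E a d) else 0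
    rw [← map_mul, hE.mul]; split_ifs <;> simp
  one := by
    show ∑ a, φ (E a a) = 1
    rw [← map_sum, hE.one, map_one]

/-- A matrix as a combination of matrix units. -/
theorem matrix_eq_sum_units {κ : Type} [Fintype κ] [DecidableEq κ] {R : Type*} [CommRing R] (x : Matrix κ κ R) :
    x = ∑ a, ∑ b, x a b • (Matrix.single a b (1 : R) : Matrix κ κ R) := by
  ext i j
  simp only [Matrix.sum_apply, Matrix.smul_apply, Matrix.single_apply, smul_eq_mul, mul_ite, mul_one, mul_zero]
  rw [Finset.sum_eq_single i, Finset.sum_eq_single j]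
  · simp
  · intro b _ hb; rw [if_neg]; rintro ⟨-, h⟩; exact hb h
  · intro h; exact absurd (Finset.mem_univ _) h
  · intro b _ hb; apply Finset.sum_eq_zero; intro c _; rw [if_neg]; rintro ⟨h, -⟩; exact hb h
  · intro h; exact absurd (Finset.mem_univ _) h

/-- Embeddings of a full matrix algebra into a matrix algebra are conjugate to the standard one. -/
theorem exists_conj_algHom {κ : Type} [Fintype κ] [DecidableEq κ] [Nonempty κ]
    (φ : Matrix κ κ F →ₐ[F] Matrix ι ι F) {e : ℕ} (σ : ι ≃ κ × Fin e) :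
    ∃ P : GL ι F, ∀ x, φ x = (P : Matrix ι ι F) *
      (Matrix.reindex σ.symm σ.symm (x ⊗ₖ (1 : Matrix (Fin e) (Fin e) F))) * ((P⁻¹ : GL ι F) : Matrix ι ι F) := by
  obtain ⟨P, hP⟩ := exists_conj_of_matrixUnits ((isMatrixUnits_single κ F).map φ.toRingHom) σ
  refine ⟨P, fun x => ?_⟩
  have h : φ x * (P : Matrix ι ι F) = (P : Matrix ι ι F) *
      (Matrix.reindex σ.symm σ.symm (x ⊗ₖ (1 : Matrix (Fin e) (Fin e) F))) := by
    conv_lhs => rw [matrix_eq_sum_units x]
    have h1 : ∀ a b, φ (Matrix.single a b 1) * (P : Matrix ι ι F) = (P : Matrix ι ι F) *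
        (Matrix.reindex σ.symm σ.symm (Matrix.single a b (1 : F) ⊗ₖ (1 : Matrix (Fin e) (Fin e) F))) := hP
    simp only [map_sum, map_smul, Finset.sum_mul, smul_mul_assoc, h1]
    have h2 : (Matrix.reindex σ.symm σ.symm (x ⊗ₖ (1 : Matrix (Fin e) (Fin e) F)))
        = ∑ a, ∑ b, x a b • (Matrix.reindex σ.symm σ.symm
          (Matrix.single a b (1 : F) ⊗ₖ (1 : Matrix (Fin e) (Fin e) F))) := by
      conv_lhs => rw [matrix_eq_sum_units x]
      ext i j
      simp only [Matrix.reindex_apply, Matrix.submatrix_apply, Matrix.kroneckerMap_apply, Matrix.sum_apply,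
        Matrix.smul_apply, smul_eq_mul, Finset.sum_mul, mul_assoc]
    rw [h2, Finset.mul_sum]
    refine Finset.sum_congr rfl fun a _ => ?_
    rw [Finset.mul_sum]
    refine Finset.sum_congr rfl fun b _ => ?_
    rw [Matrix.mul_smul]
  rw [← h, mul_assoc, ← Units.val_mul, mul_inv_cancel, Units.val_one, mul_one]

/-- Skolem-Noether: two embeddings of a full matrix algebra are conjugate. -/
theorem exists_conj_algHom₂ {κ : Type} [Fintype κ] [DecidableEq κ] [Nonempty κ]
    (φ ψ : Matrix κ κ F →ₐ[F] Matrix ι ι F) :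
    ∃ P : GL ι F, ∀ x, φ x = (P : Matrix ι ι F) * ψ x * ((P⁻¹ : GL ι F) : Matrix ι ι F) := by
  obtain ⟨e, he⟩ := card_of_matrixUnits ((isMatrixUnits_single κ F).map φ.toRingHom)
  have σ : ι ≃ κ × Fin e := Fintype.equivOfCardEq (by rw [he, Fintype.card_prod, Fintype.card_fin])
  obtain ⟨P, hP⟩ := exists_conj_algHom φ σ
  obtain ⟨Q, hQ⟩ := exists_conj_algHom ψ σ
  refine ⟨P * Q⁻¹, fun x => ?_⟩
  rw [hP, hQ, mul_inv_rev, inv_inv]
  have h1 : ((Q⁻¹ : GL ι F) : Matrix ι ι F) * (Q : Matrix ι ι F) = 1 := by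
    rw [← Units.val_mul, inv_mul_cancel, Units.val_one]
  simp only [Units.val_mul]
  have h2 : ∀ y : Matrix ι ι F, ((Q⁻¹ : GL ι F) : Matrix ι ι F) * ((Q : Matrix ι ι F) * y) = y := fun y => by
    rw [← mul_assoc, h1, one_mul]
  simp only [mul_assoc, h2]

/-- Skolem-Noether for a full matrix algebra: every endomorphism is inner. -/
theorem exists_conj_algEnd (φ : Matrix ι ι F →ₐ[F] Matrix ι ι F) :
    ∃ P : GL ι F, ∀ x, φ x = (P : Matrix ι ι F) * x * ((P⁻¹ : GL ι F) : Matrix ι ι F) := by
  rcases isEmpty_or_nonempty ι with hι | hι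
  · exact ⟨1, fun x => by ext i; exact (hι.false i).elim⟩
  exact exists_conj_algHom₂ φ (AlgHom.id F _)

end Cfsg.Agent.Lib.AschMU
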