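import Cfsg.Agent.Lib.AtkSys4

/-!
Class systems of degree `p ^ 2 + 1`: the transversal system, and a contradiction if both are
doubly transitive on classes (helper23).
-/

set_option autoImplicit false

namespace Cfsg.Agent.Lib.AtkSys

open MulAction

section

variable {G Ω : Type*} [Group G] [MulAction G Ω] {p : ℕ} [hp : Fact p.Prime]
  [Finite G] [Finite Ω] [FaithfulSMul G Ω]

/-- The transversal system. -/
def Sys.dual (S : Sys G Ω p) (h2 : TwoT G Ω) (hΩ : Nat.card Ω = p ^ 2 + 1)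
    (hp3 : 3 ≤ p) (htw : ∀ x, S.TwoTr x) : Sys G Ω p where
  rel x y z := y ≠ x ∧ z ≠ x ∧ ∀ k ∈ S.K x, k • y = y ↔ k • z = z
  ne h := h.1
  refl h := ⟨h, h, fun _ _ => Iff.rfl⟩
  symm h := ⟨h.2.1, h.1, fun k hk => (h.2.2 k hk).symm⟩
  trans h h' := ⟨h.1, h'.2.1, fun k hk => (h.2.2 k hk).trans (h'.2.2 k hk)⟩
  smul := by
    rintro g x y z ⟨h1, h3, h4⟩
    refine ⟨fun h => h1 (MulAction.injective g h), fun h => h3 (MulAction.injective g h), ?_⟩
    intro k hk
    have h5 : g⁻¹ * k * g ∈ S.K x := by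
      have := S.K_conj g⁻¹ hk
      rwa [inv_inv, inv_smul_smul] at this
    have h6 := h4 _ h5
    rw [mul_smul, mul_smul, mul_smul, mul_smul, inv_smul_eq_iff, inv_smul_eq_iff] at h6
    exact h6
  card := by
    intro x y hy
    obtain ⟨F⟩ := S.exists_frame h2 hΩ x
    let T := {z | y ≠ x ∧ z ≠ x ∧ ∀ k ∈ S.K x, k • y = y ↔ k • z = z}
    let φ : T × ZMod p → {v : Ω | v ≠ x} := fun t => ⟨F.z t.2 • t.1.1, S.ne' (F.rel_z t.1.2.2.1 t.2)⟩
    have hφ : Function.Bijective φ := by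
      constructor
      · rintro ⟨⟨z, hz⟩, i⟩ ⟨⟨z', hz'⟩, j⟩ h
        have h1 : F.z i • z = F.z j • z' := congrArg Subtype.val h
        have h3 : z = z' := by
          by_contra hne
          have h4 : S.rel x z z' := by
            have h5 := F.rel_z hz.2.1 i
            rw [h1] at h5
            exact S.trans h5 (S.symm (F.rel_z hz'.2.1 j))
          exact F.not_fix hp3 (htw x) h4 hne
            (fun k hk hkz => (hz'.2.2 k hk).mp ((hz.2.2 k hk).mpr hkz))
        subst h3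
        have h4 := F.z_inj hz.2.1 h1
        rw [h4]
      · rintro ⟨v, hv⟩
        have hv' : v ≠ x := hv
        obtain ⟨w, hw, hwf⟩ := F.exists_fix h2 hΩ hp3 (htw x) hy hv'
        obtain ⟨j, hj⟩ := F.cls_z (S.symm hw)
        refine ⟨⟨⟨w, hy, S.ne' hw, ?_⟩, j⟩, Subtype.ext hj⟩
        intro k hk
        exact ⟨hwf k hk, F.stab_symm hy (S.ne' hw) hwf k hk⟩
    have h1 := Nat.card_congr (Equiv.ofBijective φ hφ)
    rw [Nat.card_prod, Nat.card_zmod] at h1
    have h3 : Nat.card {v : Ω | v ≠ x} = p ^ 2 := by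
      rw [Nat.card_coe_set_eq]
      exact ncard_ne hΩ x
    rw [h3, sq, Nat.card_coe_set_eq] at h1
    exact Nat.eq_of_mul_eq_mul_right hp.out.pos h1

variable (S : Sys G Ω p) (h2 : TwoT G Ω) (hΩ : Nat.card Ω = p ^ 2 + 1)
    (hp3 : 3 ≤ p) (htw : ∀ x, S.TwoTr x)

theorem Sys.exists_meet {x u v : Ω} (hu : u ≠ x) (hv : v ≠ x) :
    ∃ z, S.rel x u z ∧ (S.dual h2 hΩ hp3 htw).rel x v z := by
  obtain ⟨F⟩ := S.exists_frame h2 hΩ x
  obtain ⟨w, hw, hwf⟩ := F.exists_fix h2 hΩ hp3 (htw x) hv hu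
  exact ⟨w, hw, hv, S.ne' hw, fun k hk => ⟨hwf k hk, F.stab_symm hv (S.ne' hw) hwf k hk⟩⟩

theorem Sys.meet_unique {x z z' : Ω} (h : S.rel x z z')
    (h' : (S.dual h2 hΩ hp3 htw).rel x z z') : z = z' := by
  obtain ⟨F⟩ := S.exists_frame h2 hΩ x
  by_contra hne
  exact F.not_fix hp3 (htw x) h hne (fun k hk hkz => (h'.2.2 k hk).mp hkz)

omit hp [Finite G] [Finite Ω] [FaithfulSMul G Ω] in
theorem Sys.ncard_diff (T : Sys G Ω p) {x y : Ω} (hy : y ≠ x) :
    ({z | T.rel x y z} \ {y} : Set Ω).ncard = p - 1 := by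
  have h1 : y ∈ {z | T.rel x y z} := T.refl hy
  rw [Set.ncard_sdiff_singleton_of_mem h1, T.card hy]

theorem Sys.star (htw' : ∀ x, (S.dual h2 hΩ hp3 htw).TwoTr x) {x y : Ω} (hxy : x ≠ y) :
    ∀ z, z ≠ x → z ≠ y → (S.rel y x z ↔ (S.dual h2 hΩ hp3 htw).rel x y z) := by
  classical
  set S' := S.dual h2 hΩ hp3 htw with hS'
  have hyx : y ≠ x := hxy.symm
  -- the orbits of the two-point stabiliser
  have hsub : ∀ z, S.rel y x z → z ≠ x → S'.rel x y z := by
    intro z hz hzx
    have hzy : z ≠ y := S.ne' hz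
    by_contra hcol
    have hinv : ∀ k : G, k • x = x → k • y = y → ∀ v, S.rel y x v → S.rel y x (k • v) := by
      intro k hkx hky v hv
      have := S.smul k hv
      rwa [hkx, hky] at this
    by_cases hrow : S.rel x y z
    · -- the class of `y` at `x` is the class of `x` at `y`
      have h1 : ({v | S.rel x y v} \ {y} : Set Ω) ⊆ {v | S.rel y x v} \ {x} := by
        rintro v ⟨hv, hvy⟩
        have hv' : S.rel x y v := hv
        have hvy' : v ≠ y := hvy
        obtain ⟨k, hk, hk1, hk2⟩ := htw x y hyx y z y v (S.refl hyx) hrow (S.refl hyx) hv'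
          (Ne.symm hzy) (Ne.symm hvy')
        refine ⟨?_, S.ne' hv'⟩
        have h3 := hinv k hk.1 hk1 z hz
        rw [hk2] at h3
        exact h3
      have h3 : ({v | S.rel x y v} \ {y} : Set Ω) = {v | S.rel y x v} \ {x} := by
        apply Set.eq_of_subset_of_ncard_le h1
        rw [S.ncard_diff hxy, S.ncard_diff hyx]
      apply S.not_sym h2 hΩ hp.out.two_le hxy
      intro v hvx hvy
      have h4 : v ∈ ({v | S.rel x y v} \ {y} : Set Ω) ↔ v ∈ ({v | S.rel y x v} \ {x} : Set Ω) := by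
        rw [h3]
      constructor
      · intro h; exact (h4.mp ⟨h, hvy⟩).1
      · intro h; exact (h4.mpr ⟨h, hvx⟩).1
    · -- the rest
      have h1 : ∀ v, v ≠ x → ¬ S.rel x y v → ¬ S'.rel x y v → S.rel y x v := by
        intro v hvx hvr hvc
        -- `z₂` in the row of `y` and the column of `z`; `v₂` similarly
        obtain ⟨z₂, hz₂, hz₂'⟩ := S.exists_meet h2 hΩ hp3 htw (x := x) hyx hzx
        obtain ⟨v₂, hv₂, hv₂'⟩ := S.exists_meet h2 hΩ hp3 htw (x := x) hyx hvx
        obtain ⟨z₁, hz₁, hz₁'⟩ := S.exists_meet h2 hΩ hp3 htw (x := x) hzx hyx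
        obtain ⟨v₁, hv₁, hv₁'⟩ := S.exists_meet h2 hΩ hp3 htw (x := x) hvx hyx
        rw [← hS'] at hz₂' hv₂' hz₁' hv₁'
        have e1 : z₂ ≠ y := by rintro rfl; exact hcol (S'.symm hz₂')
        have e2 : v₂ ≠ y := by rintro rfl; exact hvc (S'.symm hv₂')
        have e3 : z₁ ≠ y := by rintro rfl; exact hrow (S.symm hz₁)
        have e4 : v₁ ≠ y := by rintro rfl; exact hvr (S.symm hv₁)
        obtain ⟨k, hk, hk1, hk2⟩ := htw x y hyx y z₂ y v₂ (S.refl hyx) hz₂ (S.refl hyx) hv₂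
          e1.symm e2.symm
        obtain ⟨l, hl, hl1, hl2⟩ := htw' x y hyx y z₁ y v₁ (S'.refl hyx) hz₁' (S'.refl hyx) hv₁'
          e3.symm e4.symm
        have hkx : k • x = x := hk.1
        have hlx : l • x = x := hl.1
        -- the image of `z`
        have h3 : S.rel x v (l • k • z) := by
          -- row of `k z` is the row of `z`, the row of `z₁`
          have h4 : S.rel x z₁ (k • z) := S.rel_K hk (S.symm hz₁)
          have h5 := S.smul l h4
          rw [hlx, hl2] at h5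
          exact S.trans hv₁ h5
        have h4 : S'.rel x v (l • k • z) := by
          have h5 := S'.smul k (S'.symm hz₂')
          rw [hkx, hk2] at h5
          exact S'.rel_K hl (S'.trans hv₂' h5)
        have h5 := S.meet_unique h2 hΩ hp3 htw h3 h4
        rw [h5]
        exact hinv l hlx hl1 _ (hinv k hkx hk1 z hz)
      have h3 : ({v | v ≠ x} : Set Ω) ⊆ ({v | S.rel x y v} ∪ {v | S'.rel x y v}) ∪
          ({v | S.rel y x v} \ {x}) := by
        intro v hv
        by_cases hr : S.rel x y v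
        · left; left; exact hr
        by_cases hc : S'.rel x y v
        · left; right; exact hc
        right
        exact ⟨h1 v hv hr hc, hv⟩
      have h4 := Set.ncard_le_ncard h3 (Set.toFinite _)
      have h5 := Set.ncard_union_le ({v | S.rel x y v} ∪ {v | S'.rel x y v})
          ({v | S.rel y x v} \ {x})
      have h6 := Set.ncard_union_le {v | S.rel x y v} {v | S'.rel x y v}
      rw [ncard_ne hΩ] at h4
      rw [S.ncard_diff hxy] at h5
      rw [S.card hyx, S'.card hyx] at h6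
      have h7 : 3 * p ≤ p ^ 2 := by nlinarith
      omega
  have h1 : ({v | S.rel y x v} \ {x} : Set Ω) ⊆ {v | S'.rel x y v} \ {y} := by
    rintro v ⟨hv, hvx⟩
    exact ⟨hsub v hv hvx, S.ne' hv⟩
  have h3 : ({v | S.rel y x v} \ {x} : Set Ω) = {v | S'.rel x y v} \ {y} := by
    apply Set.eq_of_subset_of_ncard_le h1
    rw [S.ncard_diff hxy, S'.ncard_diff hyx]
  intro v hvx hvy
  have h4 : v ∈ ({v | S.rel y x v} \ {x} : Set Ω) ↔ v ∈ ({v | S'.rel x y v} \ {y} : Set Ω) := by
    rw [h3]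
  constructor
  · intro h; exact (h4.mp ⟨h, hvx⟩).1
  · intro h; exact (h4.mpr ⟨h, hvy⟩).1

/-- The system and its transversal system cannot both be doubly transitive on classes. -/
theorem Sys.false_of_dual [Nonempty Ω] (htw' : ∀ x, (S.dual h2 hΩ hp3 htw).TwoTr x) : False := by
  classical
  have hstar := fun {x y : Ω} (h : x ≠ y) => S.star h2 hΩ hp3 htw htw' h
  set S' := S.dual h2 hΩ hp3 htw with hS'
  obtain ⟨x⟩ := ‹Nonempty Ω›
  obtain ⟨F⟩ := S.exists_frame h2 hΩ x
  obtain ⟨y, hy⟩ : ∃ y : Ω, y ≠ x := by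
    by_contra hcon
    push Not at hcon
    have h1 := ncard_ne hΩ x
    have h3 : ({y | y ≠ x} : Set Ω) = ∅ := by
      ext y
      simp [hcon y]
    rw [h3, Set.ncard_empty] at h1
    have := hp.out.pos
    have h4 : 0 < p ^ 2 := by positivity
    omega
  have hxz : S.rel x y (F.q • y) := F.qK.2 y hy
  obtain ⟨z, hz⟩ : ∃ z, z = F.q • y := ⟨_, rfl⟩
  rw [← hz] at hxz
  have hzx : z ≠ x := S.ne' hxz
  have hzy : z ≠ y := by
    rw [hz]
    intro h
    exact F.q1 (F.reg hy F.qP h)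
  -- the two sets coincide
  have A1 : S'.rel y x z := (hstar hy z hzy hzx).mp hxz
  have A2 : S'.rel z x y := (hstar hzx y hzy.symm hy).mp (S.symm hxz)
  apply S'.not_sym h2 hΩ hp.out.two_le hzy.symm
  intro w hwy hwz
  by_cases hwx : w = x
  · rw [hwx]
    exact ⟨fun _ => S'.symm A2, fun _ => S'.symm A1⟩
  have B1 : S'.rel y z w ↔ S.rel x y w := by
    rw [hstar hy w hwy hwx]
    exact ⟨fun h => S'.trans A1 h, fun h => S'.trans (S'.symm A1) h⟩
  have B2 : S'.rel z y w ↔ S.rel x z w := by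
    rw [hstar hzx w hwz hwx]
    exact ⟨fun h => S'.trans A2 h, fun h => S'.trans (S'.symm A2) h⟩
  rw [B1, B2]
  exact ⟨fun h => S.trans (S.symm hxz) h, fun h => S.trans hxz h⟩

end

end Cfsg.Agent.Lib.AtkSys
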