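import Cfsg.Agent.Lib.AtkSys9
import Cfsg.Agent.Lib.AtkSys5

/-!
Doubly transitive groups of degree `p ^ 2 + 1` are doubly primitive (helper23).
-/

set_option autoImplicit false

namespace Cfsg.Agent.Lib.AtkSys

open MulAction

section

variable {G Ω : Type*} [Group G] [MulAction G Ω] {p : ℕ}

theorem Sys.twoTr_conj (S : Sys G Ω p) {x : Ω} (h : S.TwoTr x) (g : G) : S.TwoTr (g • x) := by
  intro y hy u v u' v' hu hv hu' hv' huv huv'
  have h1 : ∀ {a b}, S.rel (g • x) a b → S.rel x (g⁻¹ • a) (g⁻¹ • b) := by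
    intro a b hab
    have := S.smul g⁻¹ hab
    rwa [inv_smul_smul] at this
  obtain ⟨k, hk, hk1, hk2⟩ := h (g⁻¹ • y) (S.ne (h1 hu)) _ _ _ _ (h1 hu) (h1 hv) (h1 hu') (h1 hv')
    (fun h => huv (MulAction.injective _ h)) (fun h => huv' (MulAction.injective _ h))
  refine ⟨g * k * g⁻¹, S.K_conj g hk, ?_, ?_⟩
  · rw [mul_smul, mul_smul, hk1, smul_inv_smul]
  · rw [mul_smul, mul_smul, hk2, smul_inv_smul]

end

section

variable {G Ω : Type*} [Group G] [MulAction G Ω] {p : ℕ} [hp : Fact p.Prime]
  [Finite G] [Finite Ω] [FaithfulSMul G Ω]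

/-- Under the involution hypothesis, all systems are doubly transitive on classes. -/
theorem Sys.all_twoTr [Nonempty Ω] (S : Sys G Ω p) (h2 : TwoT G Ω) (hΩ : Nat.card Ω = p ^ 2 + 1)
    (hp3 : 3 ≤ p) (hinv : ∀ t : G, t * t = 1 → t ≠ 1 → {v : Ω | t • v = v}.ncard % 4 = 2) :
    ∀ x, S.TwoTr x := by
  classical
  by_contra hcon
  push Not at hcon
  obtain ⟨x₀, hx₀⟩ := hcon
  have Fr : ∀ x, Frame S x := fun x => (S.exists_frame h2 hΩ x).some
  refine S.false_of_affine h2 hΩ Fr ?_ hp3 hinv
  intro x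
  rcases (Fr x).dichotomy h2 hΩ with h | h
  · exact h
  · exfalso
    apply hx₀
    by_cases hx : x = x₀
    · rw [← hx]; exact h
    · obtain ⟨g, hg, _⟩ := h2 x x₀ x₀ x hx (Ne.symm hx)
      rw [← hg]
      exact S.twoTr_conj h g

theorem Sys.false_of_inv [Nonempty Ω] (S : Sys G Ω p) (h2 : TwoT G Ω)
    (hΩ : Nat.card Ω = p ^ 2 + 1) (hp3 : 3 ≤ p)
    (hinv : ∀ t : G, t * t = 1 → t ≠ 1 → {v : Ω | t • v = v}.ncard % 4 = 2) : False := by
  have h1 := S.all_twoTr h2 hΩ hp3 hinv
  exact S.false_of_dual h2 hΩ hp3 h1 ((S.dual h2 hΩ hp3 h1).all_twoTr h2 hΩ hp3 hinv)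

end

/-- Restriction of a system to a subgroup. -/
def Sys.restrict {G Ω : Type*} [Group G] [MulAction G Ω] {p : ℕ} (S : Sys G Ω p)
    (H : Subgroup G) : Sys H Ω p where
  rel := S.rel
  ne := S.ne
  refl := S.refl
  symm := S.symm
  trans := S.trans
  smul g _ _ _ h := S.smul (g : G) h
  card := S.card

/-- Fixed points of even involutions. -/
theorem fix_mod_four {Ω : Type*} [Fintype Ω] [DecidableEq Ω] (σ : Equiv.Perm Ω)
    (hσ : σ * σ = 1) (hσ1 : σ ≠ 1) (hs : Equiv.Perm.sign σ = 1) (hΩ : Fintype.card Ω % 4 = 2) :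
    {v : Ω | σ v = v}.ncard % 4 = 2 := by
  have h1 : orderOf σ = 2 := orderOf_eq_prime (by rw [sq]; exact hσ) hσ1
  obtain ⟨n, hn⟩ := Equiv.Perm.cycleType_prime_order (σ := σ) (by rw [h1]; exact Nat.prime_two)
  rw [h1] at hn
  have h3 := Equiv.Perm.sign_of_cycleType σ
  rw [hs, hn, Multiset.sum_replicate, Multiset.card_replicate, smul_eq_mul] at h3
  have h4 := Equiv.Perm.sum_cycleType σ
  rw [hn, Multiset.sum_replicate, smul_eq_mul] at h4
  have h5 : Even (n + 1) := by
    by_contra h
    rw [Nat.not_even_iff_odd] at h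
    have h6 : Odd ((n + 1) * 2 + (n + 1)) := by
      rw [Nat.odd_add]
      constructor
      · intro h7
        exfalso
        rw [Nat.odd_mul] at h7
        exact absurd h7.2 (by decide)
      · intro h7
        exfalso
        exact (Nat.not_even_iff_odd.mpr h) h7
    rw [h6.neg_one_pow] at h3
    exact absurd h3 (by decide)
  obtain ⟨k, hk⟩ := h5
  have h6 : {v : Ω | σ v = v}.ncard = Fintype.card Ω - σ.support.card := by
    have h7 : {v : Ω | σ v = v} = ((σ.supportᶜ : Finset Ω) : Set Ω) := by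
      ext v
      simp
    rw [h7, Set.ncard_coe_finset, Finset.card_compl]
  have h7 : σ.support.card ≤ Fintype.card Ω := Finset.card_le_univ _
  rw [h6]
  omega

section

variable {G Ω : Type*} [Group G] [MulAction G Ω] {p : ℕ} [hp : Fact p.Prime]
  [Finite G] [Finite Ω] [FaithfulSMul G Ω]

/-- There are no class systems for odd primes. -/
theorem Sys.false_of_odd (S : Sys G Ω p) (h2 : TwoT G Ω)
    (hΩ : Nat.card Ω = p ^ 2 + 1) (hp3 : 3 ≤ p) : False := by
  classical
  have : Fintype Ω := Fintype.ofFinite Ω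
  have hne : Nonempty Ω := by
    rw [← Finite.card_pos_iff, hΩ]; omega
  obtain ⟨k, hk⟩ := hp.out.eq_two_or_odd'.resolve_left (by omega)
  let φ : G →* ℤˣ := Equiv.Perm.sign.comp (MulAction.toPermHom G Ω)
  let H : Subgroup G := φ.ker
  -- regular groups lie in `H`
  have hPH : ∀ x (F : Frame S x), F.P ≤ H := by
    intro x F g hg
    rw [MonoidHom.mem_ker]
    have h1 : g ^ (p ^ 2) = 1 := by
      have h3 : (⟨g, hg⟩ : F.P) ^ (p ^ 2) = 1 := by
        have := pow_card_eq_one' (x := (⟨g, hg⟩ : F.P))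
        rwa [F.card] at this
      exact congrArg Subtype.val h3
    have h3 : (φ g) ^ (p ^ 2) = 1 := by rw [← map_pow, h1, map_one]
    rcases Int.units_eq_one_or (φ g) with h | h
    · exact h
    · exfalso
      have h4 : Odd (p ^ 2) := by
        apply Odd.pow
        exact ⟨k, hk⟩
      rw [h, h4.neg_one_pow] at h3
      exact absurd h3 (by decide)
  have h2' : TwoT H Ω := by
    intro x y x' y' hxy hxy'
    obtain ⟨g₁, hg₁⟩ : ∃ g₁ : H, g₁ • x = x' := by
      by_cases hx : x = x'
      · exact ⟨1, by rw [one_smul, hx]⟩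
      · obtain ⟨z, hz⟩ : ∃ z : Ω, z ∉ ({x, x'} : Finset Ω) := by
          by_contra hcon
          push Not at hcon
          have h1 : ({x, x'} : Finset Ω) = Finset.univ := Finset.eq_univ_of_forall hcon
          have h3 := Finset.card_le_two (a := x) (b := x')
          rw [h1, Finset.card_univ, ← Nat.card_eq_fintype_card, hΩ] at h3
          nlinarith
        simp only [Finset.mem_insert, Finset.mem_singleton, not_or] at hz
        obtain ⟨F⟩ := S.exists_frame h2 hΩ z
        obtain ⟨g, hg, hgx⟩ := F.tr (Ne.symm hz.1) (Ne.symm hz.2)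
        exact ⟨⟨g, hPH z F hg⟩, hgx⟩
    obtain ⟨F⟩ := S.exists_frame h2 hΩ x'
    have hy : g₁ • y ≠ x' := by
      rw [← hg₁]
      intro h
      exact hxy (MulAction.injective g₁ h).symm
    obtain ⟨g, hg, hgy⟩ := F.tr hy hxy'.symm
    refine ⟨⟨g, hPH x' F hg⟩ * g₁, ?_, ?_⟩
    · rw [mul_smul, hg₁]
      exact F.le hg
    · rw [mul_smul]
      exact hgy
  refine (S.restrict H).false_of_inv h2' hΩ hp3 ?_
  intro t ht ht1
  have h1 := fix_mod_four (MulAction.toPermHom G Ω (t : G))
    (by
      rw [← map_mul]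
      have : (t : G) * t = 1 := congrArg Subtype.val ht
      rw [this, map_one])
    (by
      intro h
      apply ht1
      apply Subtype.ext
      apply FaithfulSMul.eq_of_smul_eq_smul (α := Ω)
      intro v
      have := congrArg (fun π : Equiv.Perm Ω => π v) h
      simpa using this)
    (by
      have := t.2
      exact MonoidHom.mem_ker.mp this)
    (by
      rw [← Nat.card_eq_fintype_card, hΩ, hk]
      have : (2 * k + 1) ^ 2 + 1 = 4 * (k ^ 2 + k) + 2 := by ring
      omega)
  exact h1

/-- The case of degree five. -/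
theorem Sys.card_of_two (S : Sys G Ω 2) (h2 : TwoT G Ω)
    (hΩ : Nat.card Ω = 2 ^ 2 + 1) : Nat.card G = 20 := by
  classical
  have : Fact (Nat.Prime 2) := ⟨Nat.prime_two⟩
  have : Fintype Ω := Fintype.ofFinite Ω
  have hne : Nonempty Ω := by
    rw [← Finite.card_pos_iff, hΩ]; omega
  obtain ⟨x⟩ := hne
  obtain ⟨y, hy⟩ : ∃ y : Ω, y ≠ x := by
    by_contra hcon
    push Not at hcon
    have h1 := ncard_ne hΩ x
    have h3 : ({y | y ≠ x} : Set Ω) = ∅ := by
      ext y
      simp [hcon y]
    rw [h3, Set.ncard_empty] at h1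
    omega
  have hpt : IsPretransitive G Ω := by
    refine ⟨fun a b => ?_⟩
    by_cases hab : a = b
    · exact ⟨1, by rw [one_smul, hab]⟩
    · obtain ⟨g, hg, _⟩ := h2 a b b a hab (Ne.symm hab)
      exact ⟨g, hg⟩
  have hodd := S.not_dvd h2 hΩ hy.symm
  have htriv : Nat.card ↥(stabilizer G x ⊓ stabilizer G y) = 1 := by
    rw [Subgroup.card_eq_one, Subgroup.eq_bot_iff_forall]
    intro g hg
    have hgx : g • x = x := (Subgroup.mem_inf.mp hg).1
    have hgy : g • y = y := (Subgroup.mem_inf.mp hg).2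
    -- the other point of the class
    have hc := S.card hy
    rw [Set.ncard_eq_two] at hc
    obtain ⟨a, b, hab, hcl⟩ := hc
    obtain ⟨y', hy', hcl'⟩ : ∃ y', y' ≠ y ∧ {z | S.rel x y z} = {y, y'} := by
      have h1 : y ∈ ({a, b} : Set Ω) := by rw [← hcl]; exact S.refl hy
      rcases h1 with h1 | h1
      · exact ⟨b, by rw [h1]; exact hab.symm, by rw [hcl, h1]⟩
      · have h1' : y = b := h1
        exact ⟨a, by rw [h1']; exact hab, by rw [hcl, h1', Set.pair_comm]⟩
    have hry : S.rel x y y' := by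
      have : y' ∈ {z | S.rel x y z} := by rw [hcl']; right; rfl
      exact this
    have hgy' : g • y' = y' := by
      have h1 := S.smul g hry
      rw [hgx, hgy] at h1
      have h3 : g • y' ∈ ({y, y'} : Set Ω) := by rw [← hcl']; exact h1
      rcases h3 with h3 | h3
      · exfalso
        exact hy' (MulAction.injective g (h3.trans hgy.symm))
      · exact h3
    have hT : ({x, y, y'}ᶜ : Finset Ω).card = 2 := by
      have h1 : x ∉ ({y, y'} : Finset Ω) := by
        rw [Finset.mem_insert, Finset.mem_singleton, not_or]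
        exact ⟨hy.symm, (S.ne' hry).symm⟩
      rw [Finset.card_compl, ← Nat.card_eq_fintype_card, hΩ, Finset.card_insert_of_notMem h1,
        Finset.card_pair hy'.symm]
      norm_num
    obtain ⟨c, d, hcd, hT'⟩ := Finset.card_eq_two.mp hT
    have hgT : ∀ v, v ∈ ({x, y, y'}ᶜ : Finset Ω) → g • v ∈ ({x, y, y'}ᶜ : Finset Ω) := by
      intro v hv
      simp only [Finset.mem_compl, Finset.mem_insert, Finset.mem_singleton, not_or] at hv ⊢
      refine ⟨fun h => hv.1 (MulAction.injective g (h.trans hgx.symm)),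
        fun h => hv.2.1 (MulAction.injective g (h.trans hgy.symm)),
        fun h => hv.2.2 (MulAction.injective g (h.trans hgy'.symm))⟩
    have hgg : g * g = 1 := by
      apply FaithfulSMul.eq_of_smul_eq_smul (α := Ω)
      intro v
      rw [one_smul, mul_smul]
      by_cases hv : v ∈ ({x, y, y'}ᶜ : Finset Ω)
      · have h1 := hgT v hv
        have h3 := hgT _ h1
        rw [hT', Finset.mem_insert, Finset.mem_singleton] at hv h1 h3
        rcases hv with rfl | rfl <;> rcases h1 with h1 | h1
        · rw [h1, h1]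
        · rcases h3 with h3 | h3
          · exact h3
          · exfalso
            have h4 : g • (g • v) = g • v := h3.trans h1.symm
            exact hcd ((MulAction.injective g h4).symm.trans h1)
        · rcases h3 with h3 | h3
          · exfalso
            have h4 : g • (g • v) = g • v := h3.trans h1.symm
            exact hcd (h1.symm.trans (MulAction.injective g h4))
          · exact h3
        · rw [h1, h1]
      · simp only [Finset.mem_compl, not_not, Finset.mem_insert, Finset.mem_singleton] at hv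
        rcases hv with rfl | rfl | rfl
        · rw [hgx, hgx]
        · rw [hgy, hgy]
        · rw [hgy', hgy']
    by_contra hg1
    apply hodd
    have h1 : orderOf (⟨g, hg⟩ : ↥(stabilizer G x ⊓ stabilizer G y)) = 2 := by
      apply orderOf_eq_prime
      · rw [sq]; exact Subtype.ext hgg
      · intro h; exact hg1 (congrArg Subtype.val h)
    rw [← h1]
    exact orderOf_dvd_natCard _
  have h1 := card_stab h2 hΩ hy
  have h3 := Subgroup.card_mul_index (stabilizer G x)
  rw [index_stabilizer_of_transitive, hΩ, h1, htriv] at h3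
  omega

end

/-- Atkinson's theorem. -/
theorem main {G Ω : Type*} [Group G] [Finite G] [Finite Ω] [MulAction G Ω] [FaithfulSMul G Ω]
    (p : ℕ) (hp : p.Prime) (hΩ : Nat.card Ω = p ^ 2 + 1)
    (h2 : MulAction.IsMultiplyPretransitive G Ω 2) (a : Ω) :
    MulAction.IsPreprimitive ↥(MulAction.stabilizer G a) ↥(SubMulAction.ofStabilizer G a) ∨
      (p = 2 ∧ Nat.card G = 20) := by
  by_contra hcon
  rw [not_or] at hcon
  have hF : Fact p.Prime := ⟨hp⟩
  have h2' := twoT_of_isMultiplyPretransitive h2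
  obtain ⟨S⟩ := exists_sys hp hΩ h2' a hcon.1
  by_cases hp2 : p = 2
  · subst hp2
    exact hcon.2 ⟨rfl, S.card_of_two h2' hΩ⟩
  · exact S.false_of_odd h2' hΩ (by have := hp.two_le; omega)

end Cfsg.Agent.Lib.AtkSys
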