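import Mathlib

/-!
A lemma on elements of the integral group ring of a group of prime order (helper23).
-/

set_option autoImplicit false

namespace Cfsg.Agent.Lib.AtkRing

open AddMonoidAlgebra Finset

section

variable {R : Type*} [CommRing R] {p : ℕ} [hp : Fact p.Prime]

/-- The element of the group ring with given coefficients. -/
noncomputable def toA (f : ZMod p → R) : AddMonoidAlgebra R (ZMod p) :=
  ∑ m, single m (f m)

theorem coeff_toA (f : ZMod p → R) (a : ZMod p) : (toA f).coeff a = f a := by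
  classical
  unfold toA
  rw [coeff_sum, Finsupp.finsetSum_apply]
  rw [Finset.sum_eq_single a]
  · simp
  · intro b _ hb
    simp [hb]
  · intro h; exact absurd (Finset.mem_univ a) h

theorem toA_coeff (X : AddMonoidAlgebra R (ZMod p)) : toA (fun a => X.coeff a) = X := by
  ext a
  rw [coeff_toA]

theorem coeff_mul' (X Y : AddMonoidAlgebra R (ZMod p)) (a : ZMod p) :
    (X * Y).coeff a = ∑ u, X.coeff u * Y.coeff (a - u) := by
  classical
  conv_lhs => rw [← toA_coeff X, ← toA_coeff Y]
  unfold toA
  rw [Finset.sum_mul_sum, coeff_sum, Finsupp.finsetSum_apply]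
  apply Finset.sum_congr rfl
  intro u _
  rw [coeff_sum, Finsupp.finsetSum_apply, Finset.sum_eq_single (a - u)]
  · rw [single_mul_single]
    simp
  · intro v _ hv
    rw [single_mul_single]
    have : u + v ≠ a := by
      intro h
      apply hv
      rw [← h]; ring
    simp [this]
  · intro h; exact absurd (Finset.mem_univ _) h

/-- Inversion. -/
noncomputable def star : AddMonoidAlgebra R (ZMod p) →+* AddMonoidAlgebra R (ZMod p) :=
  mapDomainRingHom R (negAddMonoidHom (α := ZMod p))

theorem star_single (m : ZMod p) (r : R) : star (single m r) = single (-m) r := by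
  simp [star, mapDomainRingHom, mapDomain_single]

theorem coeff_star (X : AddMonoidAlgebra R (ZMod p)) (a : ZMod p) :
    (star X).coeff a = X.coeff (-a) := by
  conv_lhs => rw [← toA_coeff X]
  unfold toA
  rw [map_sum, coeff_sum, Finsupp.finsetSum_apply, Finset.sum_eq_single (-a)]
  · rw [star_single]
    simp
  · intro b _ hb
    rw [star_single]
    have : -b ≠ a := by
      intro h
      apply hb
      rw [← h, neg_neg]
    simp [this]
  · intro h; exact absurd (Finset.mem_univ _) h

theorem star_toA (f : ZMod p → R) : star (toA f) = toA (fun a => f (-a)) := by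
  ext a
  rw [coeff_star, coeff_toA, coeff_toA]

/-- The sum of all group elements. -/
noncomputable def J : AddMonoidAlgebra R (ZMod p) := toA (fun _ => 1)

theorem single_mul_J (m : ZMod p) (r : R) : single m r * J = r • (J : AddMonoidAlgebra R (ZMod p)) := by
  classical
  ext a
  rw [coeff_mul', Finset.sum_eq_single m]
  · simp [J, coeff_toA]
  · intro b _ hb
    simp [Ne.symm hb]
  · intro h; exact absurd (Finset.mem_univ _) h

theorem J_mul_J : (J : AddMonoidAlgebra R (ZMod p)) * J = (p : R) • J := by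
  ext a
  rw [coeff_mul']
  simp [J, coeff_toA, ZMod.card]

theorem star_J : star (J : AddMonoidAlgebra R (ZMod p)) = J := by
  unfold J
  rw [star_toA]

/-- difference of two coefficients -/
theorem delta (a b : R) :
    (single 0 a + b • (J : AddMonoidAlgebra R (ZMod p))).coeff 0 -
      (single 0 a + b • (J : AddMonoidAlgebra R (ZMod p))).coeff 1 = a := by
  simp [J, coeff_toA]

theorem pow_form (n l : R) (j : ℕ) : ∃ μ : R,
    (single 0 n + l • (J : AddMonoidAlgebra R (ZMod p))) ^ j = single 0 (n ^ j) + μ • J := by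
  induction j with
  | zero => exact ⟨0, by simp [one_def]⟩
  | succ j ih =>
    obtain ⟨μ, hμ⟩ := ih
    refine ⟨n ^ j * l + μ * n + μ * l * p, ?_⟩
    rw [pow_succ, hμ, add_mul, mul_add, mul_add, single_mul_single, mul_smul_comm, single_mul_J,
      smul_mul_assoc, mul_comm J (single 0 n), single_mul_J, smul_mul_smul_comm, J_mul_J,
      smul_smul, smul_smul, smul_smul, add_zero, ← pow_succ, add_smul, add_smul]
    ring_nf

end

section

variable {p : ℕ} [hp : Fact p.Prime]

theorem pow_p_mod (f : ZMod p → ℤ) (hf : ∀ m, f m = 0 ∨ f m = 1) :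
    mapRingHom (ZMod p) (Int.castRingHom (ZMod p)) (toA f ^ p) =
      single 0 ((∑ m, f m : ℤ) : ZMod p) := by
  have : CharP (AddMonoidAlgebra (ZMod p) (ZMod p)) p :=
    charP_of_injective_ringHom (f := (singleZeroRingHom : ZMod p →+* AddMonoidAlgebra (ZMod p) (ZMod p)))
      (fun a b h => by
        have h1 := congrArg (fun X : AddMonoidAlgebra (ZMod p) (ZMod p) => X.coeff 0) h
        simpa [singleZeroRingHom] using h1) p
  rw [map_pow]
  unfold toA
  rw [map_sum, sum_pow_char]
  have h1 : ∀ m : ZMod p, (mapRingHom (ZMod p) (Int.castRingHom (ZMod p)) (single m (f m))) ^ p =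
      single 0 ((f m : ℤ) : ZMod p) := by
    intro m
    rw [mapRingHom_single, single_pow]
    congr 1
    · rw [nsmul_eq_mul, CharP.cast_eq_zero, zero_mul]
    · rcases hf m with h | h
      · rw [h]; simp [hp.out.ne_zero]
      · rw [h]; simp
  rw [Finset.sum_congr rfl (fun m _ => h1 m)]
  ext a
  rw [coeff_sum, Finsupp.finsetSum_apply]
  by_cases ha : a = 0
  · subst ha; simp
  · simp [Ne.symm ha]

/-- The arithmetic of the situation. -/
theorem key (hp3 : 3 ≤ p) (f : ZMod p → ℤ) (hf : ∀ m, f m = 0 ∨ f m = 1) (k : ℕ)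
    (hk : ∑ m, f m = k) (hk1 : 1 ≤ k) (hk2 : k ≤ p - 1) (l : ℤ)
    (h1 : ∀ a, a ≠ 0 → ∑ u, f u * f (u - a) = l) (t : ZMod p) (c c' : ℤ)
    (h2 : (toA f) ^ p = single t c + c' • J) : k = 1 ∨ k = p - 1 := by
  classical
  have hFF : toA f * star (toA f) = single 0 ((k : ℤ) - l) + l • J := by
    ext a
    rw [coeff_mul', star_toA]
    simp only [coeff_toA, J, coeff_add, coeff_smul, Finsupp.add_apply, Finsupp.smul_apply,
      coeff_single]
    have h3 : ∀ u, f (-(a - u)) = f (u - a) := by intro u; rw [neg_sub]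
    simp only [h3]
    by_cases ha : a = 0
    · subst ha
      have h4 : ∀ u, f u * f (u - 0) = f u := by
        intro u; rw [sub_zero]; rcases hf u with h | h <;> rw [h] <;> rfl
      rw [Finset.sum_congr rfl (fun u _ => h4 u), hk]
      simp
    · rw [h1 a ha]
      simp [Ne.symm ha]
  -- the modulus
  have hn : (p : ℤ) ≠ 0 := by exact_mod_cast hp.out.ne_zero
  have hc2 : ((k : ℤ) - l) ^ p = c ^ 2 := by
    obtain ⟨μ, hμ⟩ := pow_form (p := p) ((k : ℤ) - l) l p
    have h3 : (single t c + c' • J) * star (single t c + c' • J) =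
        (single 0 (c ^ 2) + (2 * (c * c') + c' * c' * p) • J : AddMonoidAlgebra ℤ (ZMod p)) := by
      rw [map_add, star_single, map_zsmul, star_J, add_mul, mul_add, mul_add, single_mul_single,
        mul_smul_comm, single_mul_J, smul_mul_assoc, mul_comm J (single (-t) c), single_mul_J,
        smul_mul_smul_comm, J_mul_J, add_neg_cancel]
      rw [smul_smul, smul_smul, add_smul, two_mul, add_smul, sq]
      rw [mul_comm c' c]
      abel
    have h4 : (toA f * star (toA f)) ^ p = (single t c + c' • J) * star (single t c + c' • J) := by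
      rw [mul_pow, ← map_pow, h2]
    rw [hFF, hμ, h3] at h4
    have h5 := delta (R := ℤ) (p := p) (((k : ℤ) - l) ^ p) μ
    rw [h4, delta] at h5
    exact h5.symm
  -- augmentation
  have haug : (k : ℤ) * (k - 1) = l * (p - 1) := by
    have h3 : ∑ a, ∑ u, f u * f (u - a) = (k : ℤ) * k := by
      rw [Finset.sum_comm]
      have h4 : ∀ u, ∑ a, f u * f (u - a) = f u * k := by
        intro u
        rw [← Finset.mul_sum]
        congr 1
        rw [← hk]
        exact Equiv.sum_comp (Equiv.subLeft u) f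
      rw [Finset.sum_congr rfl (fun u _ => h4 u), ← Finset.sum_mul, hk]
    rw [← Finset.add_sum_erase _ _ (Finset.mem_univ (0 : ZMod p))] at h3
    have h4 : ∑ u, f u * f (u - 0) = k := by
      rw [← hk]
      apply Finset.sum_congr rfl
      intro u _
      rw [sub_zero]; rcases hf u with h | h <;> rw [h] <;> rfl
    have h5 : ∑ a ∈ Finset.univ.erase (0 : ZMod p), ∑ u, f u * f (u - a) = (p - 1) * l := by
      rw [Finset.sum_congr rfl (fun a ha => h1 a (Finset.ne_of_mem_erase ha)), Finset.sum_const,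
        Finset.card_erase_of_mem (Finset.mem_univ _), Finset.card_univ, ZMod.card, nsmul_eq_mul,
        Nat.cast_sub hp.out.one_lt.le]
      simp
    rw [h4, h5] at h3
    linarith
  -- reduction modulo `p`
  have hcoef : ∀ a : ZMod p, (if a = 0 then ((k : ℕ) : ZMod p) else 0) =
      (if a = t then (c : ZMod p) else 0) + (c' : ZMod p) := by
    intro a
    have h3 := pow_p_mod f hf
    rw [h2, hk] at h3
    have h4 := congrArg (fun X => X.coeff a) h3
    simp only [coeff_mapRingHom, coeff_add, coeff_smul, Finsupp.add_apply, Finsupp.smul_apply,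
      coeff_single, J, coeff_toA, Finsupp.single_apply] at h4
    rw [eq_comm] at h4
    simp only [eq_comm (a := (0 : ZMod p)), eq_comm (a := t)] at h4
    push_cast at h4
    rw [h4]
    split_ifs <;> simp
  have hk0 : ((k : ℕ) : ZMod p) ≠ 0 := by
    intro h
    rw [ZMod.natCast_eq_zero_iff] at h
    have := Nat.le_of_dvd (by omega) h
    have := hp.out.pos
    omega
  have hc'0 : (c' : ZMod p) = 0 := by
    obtain ⟨a, ha0, hat⟩ : ∃ a : ZMod p, a ≠ 0 ∧ a ≠ t := by
      have h3 : ({0, t} : Finset (ZMod p)).card < Fintype.card (ZMod p) := by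
        rw [ZMod.card]
        have := Finset.card_le_two (a := (0 : ZMod p)) (b := t)
        omega
      obtain ⟨a, ha⟩ := Finset.exists_mem_notMem_of_card_lt_card
        (s := {0, t}) (t := Finset.univ) (by rw [Finset.card_univ]; exact h3)
      refine ⟨a, ?_, ?_⟩
      · rintro rfl; exact ha.2 (by simp)
      · rintro rfl; exact ha.2 (by simp)
    have := hcoef a
    rw [if_neg ha0, if_neg hat, zero_add] at this
    exact this.symm
  have hck : (c : ZMod p) = ((k : ℕ) : ZMod p) := by
    have h3 := hcoef 0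
    rw [if_pos rfl, hc'0, add_zero] at h3
    by_cases h4 : (0 : ZMod p) = t
    · rw [if_pos h4] at h3; exact h3.symm
    · rw [if_neg h4] at h3; exact absurd h3 hk0
  -- `n` is a square
  obtain ⟨h, hh⟩ : ∃ h, p = 2 * h + 1 := by
    rcases hp.out.eq_two_or_odd' with h | h
    · omega
    · exact h
  obtain ⟨m, hm, hcm⟩ : ∃ m : ℤ, m ^ 2 = (k : ℤ) - l ∧ c = m ^ p := by
    set n : ℤ := (k : ℤ) - l with hn0
    have h3 : (n ^ h) ^ 2 ∣ c ^ 2 := by
      rw [← hc2, hh]
      exact ⟨n, by ring⟩
    have h4 : n ^ h ∣ c := (Int.pow_dvd_pow_iff two_ne_zero).mp h3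
    obtain ⟨m, hm⟩ := h4
    by_cases hn1 : n = 0
    · refine ⟨0, by rw [hn1]; ring, ?_⟩
      rw [zero_pow hp.out.ne_zero]
      have : c ^ 2 = 0 := by rw [← hc2, hn1, zero_pow hp.out.ne_zero]
      exact pow_eq_zero_iff two_ne_zero |>.mp this
    · have h5 : n = m ^ 2 := by
        have h6 : n ^ (2 * h) * n = n ^ (2 * h) * m ^ 2 := by
          rw [← pow_succ, ← hh, hc2, hm]; ring
        exact mul_left_cancel₀ (pow_ne_zero _ hn1) h6
      refine ⟨m, h5.symm, ?_⟩
      rw [hm, hh, h5]; ring
  have hmk : (m : ZMod p) = ((k : ℕ) : ZMod p) := by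
    rw [← hck, hcm]
    push_cast
    rw [ZMod.pow_card]
  have hdiv : (p : ℤ) ∣ m - k := by
    rw [← ZMod.intCast_zmod_eq_zero_iff_dvd]
    push_cast
    rw [hmk]; simp
  have hl0 : 0 ≤ l := by
    rw [← h1 1 one_ne_zero]
    apply Finset.sum_nonneg
    intro u _
    rcases hf u with h | h <;> rcases hf (u - 1) with h' | h' <;> rw [h, h'] <;> norm_num
  have hkp : (k : ℤ) ≤ p - 1 := by
    have : k + 1 ≤ p := by omega
    have : (k : ℤ) + 1 ≤ p := by exact_mod_cast this
    linarith
  have hk1' : (1 : ℤ) ≤ k := by exact_mod_cast hk1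
  have hp3' : (3 : ℤ) ≤ p := by exact_mod_cast hp3
  have hmlt : -(p : ℤ) < m ∧ m < p := by
    constructor <;> nlinarith
  obtain ⟨r, hr⟩ := hdiv
  have hr' : r = 0 ∨ r = -1 := by
    have h3 : r < 1 := by
      by_contra h
      push Not at h
      nlinarith
    have h4 : -2 < r := by
      by_contra h
      push Not at h
      nlinarith
    omega
  rcases hr' with rfl | rfl
  · left
    have h3 : m = k := by linarith
    rw [h3] at hm
    have : (k : ℤ) ≤ 1 := by nlinarith
    omega
  · right
    have h3 : m = k - p := by linarith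
    have h4 : ((p : ℤ) - 1) * (p - k) * (p - k) = k * (p - k) := by
      rw [h3] at hm
      have h5 : (p - 1) * ((k : ℤ) - p) ^ 2 = (p - 1) * (k - l) := by rw [hm]
      have h6 : (p - 1) * ((k : ℤ) - l) = (p - 1) * k - k * (k - 1) := by rw [haug]; ring
      rw [h6] at h5
      linarith [h5]
    have h7 : (p : ℤ) - k ≠ 0 := by
      intro h; linarith
    have h8 := mul_right_cancel₀ h7 h4
    have h9 : (p : ℤ) - 1 ≤ k := by nlinarith
    have : (p : ℤ) ≤ k + 1 := by linarith
    have : p ≤ k + 1 := by exact_mod_cast this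
    omega

/-- Intertwining two doubly transitive actions of prime degree. -/
theorem abstract_key (hp3 : 3 ≤ p) {Γ : Type*} [Group Γ] (σ : Γ →* Equiv.Perm (ZMod p))
    (α : Γ → Γ) (q : Γ) (hq : ∀ j, σ q j = j + 1) (f : ZMod p → ℤ) (hf : ∀ m, f m = 0 ∨ f m = 1)
    (hinv : ∀ g u w, f (σ (α g) w - σ g u) = f (w - u)) (τ : ℕ)
    (hαp : ∀ g, α^[p] g = (q ^ τ)⁻¹ * g * q ^ τ)
    (h2t : ∀ u v u' v' : ZMod p, u ≠ v → u' ≠ v' → ∃ g, σ g u = u' ∧ σ g v = v') (k : ℕ)
    (hk : ∑ m, f m = k) (hk1 : 1 ≤ k) (hk2 : k ≤ p - 1) : k = 1 ∨ k = p - 1 := by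
  classical
  have h01 : (0 : ZMod p) ≠ 1 := zero_ne_one
  have hqn : ∀ (n : ℕ) j, σ (q ^ n) j = j + n := by
    intro n
    induction n with
    | zero => intro j; simp
    | succ n ih =>
      intro j
      rw [pow_succ', map_mul, Equiv.Perm.mul_apply, ih, hq]
      push_cast
      ring
  -- (i)
  have hR : ∀ g v v', ∑ w, f (w - σ g v) * f (w - σ g v') = ∑ w, f (w - v) * f (w - v') := by
    intro g v v'
    rw [← Equiv.sum_comp (σ (α g))]
    apply Finset.sum_congr rfl
    intro w _
    rw [hinv, hinv]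
  have hr : ∀ a, a ≠ 0 → ∑ u, f u * f (u - a) = ∑ w, f (w - 0) * f (w - 1) := by
    intro a ha
    obtain ⟨g, hg0, hga⟩ := h2t 0 1 0 a h01 (Ne.symm ha)
    have := hR g 0 1
    rw [hg0, hga] at this
    rw [← this]
    apply Finset.sum_congr rfl
    intro u _
    rw [sub_zero]
  -- (ii)
  have hE : ∀ (j : ℕ) g v w, (toA f ^ j).coeff (σ (α^[j] g) w - σ g v) =
      (toA f ^ j).coeff (w - v) := by
    intro j
    induction j with
    | zero =>
      intro g v w
      rw [pow_zero, one_def, coeff_single, Finsupp.single_apply, Finsupp.single_apply]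
      have : (0 = σ (α^[0] g) w - σ g v) ↔ (0 = w - v) := by
        rw [Function.iterate_zero, id_eq, eq_comm, sub_eq_zero, eq_comm (a := (0 : ZMod p)),
          sub_eq_zero]
        exact (σ g).injective.eq_iff
      simp only [this]
    | succ j ih =>
      intro g v w
      rw [pow_succ, coeff_mul', coeff_mul']
      have e1 : ∀ b v', ∑ u, (toA f ^ j).coeff u * (toA f).coeff (b - v' - u) =
          ∑ u, (toA f ^ j).coeff (u - v') * f (b - u) := by
        intro b v'
        rw [← Equiv.sum_comp (Equiv.subRight v')]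
        apply Finset.sum_congr rfl
        intro u _
        rw [coeff_toA, Equiv.subRight_apply]
        congr 2
        ring
      rw [e1, e1, ← Equiv.sum_comp (σ (α^[j] g))]
      apply Finset.sum_congr rfl
      intro u _
      rw [ih, Function.iterate_succ', Function.comp_apply, hinv]
  have hD : ∀ g v w, (toA f ^ p).coeff (σ g w - τ - σ g v) = (toA f ^ p).coeff (w - τ - v) := by
    intro g v w
    rw [← hE p g v (w - τ), hαp, map_mul, map_mul, Equiv.Perm.mul_apply, Equiv.Perm.mul_apply,
      hqn]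
    congr 2
    have h1 : w - (τ : ZMod p) + τ = w := by ring
    rw [h1]
    rw [map_inv, Equiv.Perm.eq_inv_iff_eq, hqn]
    ring
  obtain ⟨c', hc'⟩ : ∃ c', c' = (toA f ^ p).coeff (1 - τ - 0) := ⟨_, rfl⟩
  have hne : ∀ a, a ≠ -(τ : ZMod p) → (toA f ^ p).coeff a = c' := by
    intro a ha
    have h1 : a + τ ≠ 0 := fun h => ha (eq_neg_of_add_eq_zero_left h)
    obtain ⟨g, hg0, hga⟩ := h2t 0 1 0 (a + τ) h01 (Ne.symm h1)
    have h3 := hD g 0 1
    rw [hg0, hga] at h3
    rw [hc', ← h3]
    congr 1
    ring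
  refine key hp3 f hf k hk hk1 hk2 _ hr (-(τ : ZMod p))
    ((toA f ^ p).coeff (-(τ : ZMod p)) - c') c' ?_
  ext a
  rw [coeff_add, coeff_smul, coeff_single, Finsupp.add_apply, Finsupp.smul_apply, J, coeff_toA,
    Finsupp.single_apply]
  by_cases ha : -(τ : ZMod p) = a
  · rw [if_pos ha, ha]
    simp
  · rw [if_neg ha, hne a (Ne.symm ha)]
    simp

end

end Cfsg.Agent.Lib.AtkRing
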