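import Mathlib

/-!
Two-transitive groups of degree `p ^ 2 + 1` whose point stabilisers are imprimitive:
invariant systems of classes (helper23).
-/

set_option autoImplicit false

namespace Cfsg.Agent.Lib.AtkSys

open MulAction

open scoped Pointwise

/-- An equivariant family of equivalence relations on the complements of points, with classes of
size `p`. -/
structure Sys (G Ω : Type*) [Group G] [MulAction G Ω] (p : ℕ) where
  rel : Ω → Ω → Ω → Prop
  ne : ∀ {x y z}, rel x y z → y ≠ x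
  refl : ∀ {x y}, y ≠ x → rel x y y
  symm : ∀ {x y z}, rel x y z → rel x z y
  trans : ∀ {x y z w}, rel x y z → rel x z w → rel x y w
  smul : ∀ (g : G) {x y z}, rel x y z → rel (g • x) (g • y) (g • z)
  card : ∀ {x y}, y ≠ x → {z | rel x y z}.ncard = p

/-- Double transitivity, elementwise. -/
def TwoT (G Ω : Type*) [Group G] [MulAction G Ω] : Prop :=
  ∀ x y x' y' : Ω, x ≠ y → x' ≠ y' → ∃ g : G, g • x = x' ∧ g • y = y'

section

variable {G Ω : Type*} [Group G] [MulAction G Ω] {p : ℕ}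

theorem twoT_of_isMultiplyPretransitive (h : IsMultiplyPretransitive G Ω 2) : TwoT G Ω := by
  intro x y x' y' hxy hxy'
  have h1 := (is_two_pretransitive_iff (G := G) (α := Ω)).mp h hxy hxy'
  obtain ⟨g, hg⟩ := h1
  exact ⟨g, hg.1, hg.2⟩

theorem Sys.ne' (S : Sys G Ω p) {x y z : Ω} (h : S.rel x y z) : z ≠ x := S.ne (S.symm h)

theorem Sys.rel_smul_iff (S : Sys G Ω p) (g : G) {x y z : Ω} :
    S.rel (g • x) (g • y) (g • z) ↔ S.rel x y z := by
  constructor
  · intro h
    have := S.smul g⁻¹ h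
    simpa using this
  · exact S.smul g

/-- The relation is not symmetric in its first two arguments. -/
theorem Sys.not_sym [Finite Ω] (S : Sys G Ω p) (h2 : TwoT G Ω) (hΩ : Nat.card Ω = p ^ 2 + 1)
    (hp : 2 ≤ p) {x y : Ω} (hxy : x ≠ y) :
    ¬ ∀ z, z ≠ x → z ≠ y → (S.rel x y z ↔ S.rel y x z) := by
  classical
  intro h0
  have hs : ∀ a b : Ω, a ≠ b → ∀ z, z ≠ a → z ≠ b → S.rel a b z → S.rel b a z := by
    intro a b hab z hza hzb h
    obtain ⟨g, hga, hgb⟩ := h2 a b x y hab hxy
    have h1 := S.smul g h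
    rw [hga, hgb] at h1
    have h3 : g • z ≠ x := by
      rw [← hga]; intro h4; exact hza (MulAction.injective g h4)
    have h4 : g • z ≠ y := by
      rw [← hgb]; intro h4; exact hzb (MulAction.injective g h4)
    have h5 := (h0 _ h3 h4).mp h1
    have h6 := S.smul g⁻¹ h5
    rw [← hga, ← hgb] at h6
    simpa using h6
  have hyx : y ≠ x := hxy.symm
  have : Fintype Ω := Fintype.ofFinite Ω
  -- the line through `x` and `y`
  let C : Set Ω := insert x {z | S.rel x y z}
  have hC : C.ncard = p + 1 := by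
    show (insert x {z | S.rel x y z} : Set Ω).ncard = p + 1
    have h1 : x ∉ {z | S.rel x y z} := fun h => S.ne' h rfl
    rw [Set.ncard_insert_of_notMem h1 (Set.toFinite _), S.card hyx]
  obtain ⟨z, hz⟩ : ∃ z, z ∉ C := by
    by_contra hcon
    push Not at hcon
    have h1 : C = Set.univ := Set.eq_univ_of_forall hcon
    rw [h1, Set.ncard_univ, hΩ] at hC
    nlinarith
  have hzx : z ≠ x := fun h => hz (h ▸ Set.mem_insert _ _)
  have hzr : ¬ S.rel x y z := fun h => hz (Set.mem_insert_of_mem _ h)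
  have hzw : ∀ w ∈ C, w ≠ z := fun w hw h => hz (h ▸ hw)
  have key1 : ∀ w', S.rel x y w' → ¬ S.rel z x w' := by
    intro w' hw' h
    have h1 : S.rel x z w' := hs z x hzx w' (hzw w' (Set.mem_insert_of_mem _ hw')) (S.ne' hw') h
    exact hzr (S.trans hw' (S.symm h1))
  have key2 : ∀ w w', w ≠ w' → S.rel x y w → S.rel x y w' → ¬ S.rel z w w' := by
    intro w w' hww hw hw' h
    have hwz : w ≠ z := hzw w (Set.mem_insert_of_mem _ hw)
    have hwz' : w' ≠ z := hzw w' (Set.mem_insert_of_mem _ hw')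
    have h1 : S.rel w z w' := hs z w hwz.symm w' hwz' hww.symm h
    have h2 : S.rel w x w' := hs x w (S.ne' hw).symm w' (S.ne' hw') hww.symm (S.trans (S.symm hw) hw')
    have h3 : S.rel w x z := S.trans h2 (S.symm h1)
    have h4 : S.rel x w z := hs w x (S.ne' hw) z hwz.symm hzx h3
    exact hzr (S.trans hw h4)
  have key : ∀ w ∈ C, ∀ w' ∈ C, w ≠ w' → ¬ S.rel z w w' := by
    intro w hw w' hw' hne
    rcases Set.mem_insert_iff.mp hw with rfl | hw1
    · rcases Set.mem_insert_iff.mp hw' with rfl | hw2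
      · exact absurd rfl hne
      · exact key1 w' hw2
    · rcases Set.mem_insert_iff.mp hw' with rfl | hw2
      · intro h; exact key1 w hw1 (S.symm h)
      · exact key2 w w' hne hw1 hw2
  -- count
  have hcount : ∑ w ∈ C.toFinset, (Set.toFinset {v | S.rel z w v}).card ≤ p ^ 2 := by
    rw [← Finset.card_biUnion]
    · have h1 : (C.toFinset.biUnion fun w => (Set.toFinset {v | S.rel z w v})) ⊆
          Finset.univ.erase z := by
        intro v hv
        simp only [Finset.mem_biUnion, Set.mem_toFinset, Set.mem_ofPred_eq] at hv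
        obtain ⟨w, _, hw⟩ := hv
        exact Finset.mem_erase.mpr ⟨S.ne' hw, Finset.mem_univ _⟩
      have h2 := Finset.card_le_card h1
      rw [Finset.card_erase_of_mem (Finset.mem_univ _), Finset.card_univ,
        ← Nat.card_eq_fintype_card, hΩ] at h2
      simpa using h2
    · intro w hw w' hw' hne
      rw [Function.onFun, Finset.disjoint_left]
      intro v hv hv'
      simp only [Set.mem_toFinset, Set.mem_ofPred_eq] at hv hv'
      exact key w (by simpa using hw) w' (by simpa using hw') hne (S.trans hv (S.symm hv'))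
  have hsum : ∑ w ∈ C.toFinset, (Set.toFinset {v | S.rel z w v}).card = (p + 1) * p := by
    rw [Finset.sum_const_nat (m := p), ← Set.ncard_eq_toFinset_card', hC]
    intro w hw
    rw [← Set.ncard_eq_toFinset_card']
    exact S.card (hzw w (by simpa using hw))
  rw [hsum] at hcount
  nlinarith

end

/-- The class system of a two-transitive group whose point stabilisers are not primitive. -/
theorem exists_sys {G Ω : Type*} [Group G] [Finite Ω] [MulAction G Ω] {p : ℕ} (hp : p.Prime)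
    (hΩ : Nat.card Ω = p ^ 2 + 1) (h2 : TwoT G Ω) (a : Ω)
    (hprim : ¬ IsPreprimitive ↥(stabilizer G a) ↥(SubMulAction.ofStabilizer G a)) :
    Nonempty (Sys G Ω p) := by
  classical
  have htr : IsPretransitive ↥(stabilizer G a) ↥(SubMulAction.ofStabilizer G a) := by
    refine ⟨fun x y => ?_⟩
    have hx : (x : Ω) ≠ a := x.2
    have hy : (y : Ω) ≠ a := y.2
    obtain ⟨g, hg1, hg2⟩ := h2 a x a y hx.symm hy.symm
    exact ⟨⟨g, hg1⟩, Subtype.ext hg2⟩
  have hcard : Nat.card ↥(SubMulAction.ofStabilizer G a) = p ^ 2 := by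
    have h1 : Nat.card ↥(SubMulAction.ofStabilizer G a) = ({a}ᶜ : Set Ω).ncard := rfl
    rw [h1]
    have h3 := Set.ncard_add_ncard_compl ({a} : Set Ω)
    rw [Set.ncard_singleton, hΩ] at h3
    omega
  obtain ⟨B, hB, hBn⟩ : ∃ B : Set ↥(SubMulAction.ofStabilizer G a),
      IsBlock ↥(stabilizer G a) B ∧ ¬ IsTrivialBlock B := by
    by_contra hcon
    push Not at hcon
    exact hprim ⟨fun {B} hB => hcon B hB⟩
  have hBne : B.Nonempty := by
    rw [Set.nonempty_iff_ne_empty]
    rintro rfl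
    exact hBn (Or.inl Set.subsingleton_empty)
  have hdvd := IsBlock.ncard_dvd_card hB hBne
  rw [hcard] at hdvd
  have hBp : B.ncard = p := by
    obtain ⟨k, hk, hk'⟩ := (Nat.dvd_prime_pow hp).mp hdvd
    interval_cases k
    · exfalso
      rw [pow_zero, Set.ncard_eq_one] at hk'
      obtain ⟨b, rfl⟩ := hk'
      exact hBn (Or.inl Set.subsingleton_singleton)
    · simpa using hk'
    · exfalso
      apply hBn
      right
      apply Set.eq_univ_of_forall
      by_contra hcon
      push Not at hcon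
      obtain ⟨b, hb⟩ := hcon
      have h1 : B.ncard < (Set.univ : Set ↥(SubMulAction.ofStabilizer G a)).ncard :=
        Set.ncard_lt_ncard ⟨Set.subset_univ _, fun h => hb (h trivial)⟩ (Set.toFinite _)
      rw [Set.ncard_univ, hcard, hk'] at h1
      exact lt_irrefl _ h1
  let B1 : Set Ω := Subtype.val '' B
  have hB1 : B1.ncard = p := by
    rw [← hBp]
    exact Set.ncard_image_of_injective _ Subtype.val_injective
  have hBa : ∀ b ∈ B1, b ≠ a := by
    rintro _ ⟨b, _, rfl⟩
    exact b.2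
  have hblk : ∀ g : G, g • a = a → ∀ b ∈ B1, g • b ∈ B1 → ∀ c ∈ B1, g • c ∈ B1 := by
    rintro g hg _ ⟨b, hb, rfl⟩ ⟨b', hb', hbb⟩ _ ⟨c, hc, rfl⟩
    have h1 : (⟨g, hg⟩ : stabilizer G a) • B = B := by
      rw [isBlock_iff_smul_eq_of_mem] at hB
      apply hB hb
      have : (⟨g, hg⟩ : stabilizer G a) • b = b' := Subtype.ext hbb.symm
      rw [this]; exact hb'
    have h3 : (⟨g, hg⟩ : stabilizer G a) • c ∈ B := by
      rw [← h1]; exact Set.smul_mem_smul_set hc
    exact ⟨_, h3, rfl⟩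
  obtain ⟨b0, hb0⟩ : B1.Nonempty := hBne.image _
  refine ⟨{
    rel := fun x y z => ∃ g : G, g • a = x ∧ g⁻¹ • y ∈ B1 ∧ g⁻¹ • z ∈ B1
    ne := ?_
    refl := ?_
    symm := ?_
    trans := ?_
    smul := ?_
    card := ?_ }⟩
  · rintro x y z ⟨g, rfl, hy, hz⟩ h
    rw [h, inv_smul_smul] at hy
    exact hBa a hy rfl
  · intro x y hyx
    obtain ⟨g, hg1, hg2⟩ := h2 a b0 x y (hBa _ hb0).symm hyx.symm
    refine ⟨g, hg1, ?_, ?_⟩ <;> rw [← hg2, inv_smul_smul] <;> exact hb0
  · rintro x y z ⟨g, h1, h3, h4⟩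
    exact ⟨g, h1, h4, h3⟩
  · rintro x y z w ⟨g, hg, hy, hz⟩ ⟨h, hh, hz', hw⟩
    refine ⟨g, hg, hy, ?_⟩
    have h1 : (g⁻¹ * h) • a = a := by
      rw [mul_smul, hh, ← hg, inv_smul_smul]
    have h3 := hblk (g⁻¹ * h) h1 (h⁻¹ • z) hz' (by rw [mul_smul, smul_inv_smul]; exact hz)
      (h⁻¹ • w) hw
    rwa [mul_smul, smul_inv_smul] at h3
  · rintro g x y z ⟨h, rfl, hy, hz⟩
    refine ⟨g * h, mul_smul _ _ _, ?_, ?_⟩
    · rw [mul_inv_rev, mul_smul, inv_smul_smul]; exact hy
    · rw [mul_inv_rev, mul_smul, inv_smul_smul]; exact hz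
  · intro x y hyx
    obtain ⟨g, hg1, hg2⟩ := h2 a b0 x y (hBa _ hb0).symm hyx.symm
    have hyB : g⁻¹ • y ∈ B1 := by rw [← hg2, inv_smul_smul]; exact hb0
    have h1 : {z | ∃ g : G, g • a = x ∧ g⁻¹ • y ∈ B1 ∧ g⁻¹ • z ∈ B1} = (fun b => g • b) '' B1 := by
      ext z
      constructor
      · rintro ⟨h, hh, hy, hz⟩
        refine ⟨g⁻¹ • z, ?_, smul_inv_smul _ _⟩
        have h3 : (g⁻¹ * h) • a = a := by
          rw [mul_smul, hh, ← hg1, inv_smul_smul]
        have h4 := hblk (g⁻¹ * h) h3 (h⁻¹ • y) hy (by rw [mul_smul, smul_inv_smul]; exact hyB)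
          (h⁻¹ • z) hz
        rwa [mul_smul, smul_inv_smul] at h4
      · rintro ⟨b, hb, rfl⟩
        refine ⟨g, hg1, hyB, ?_⟩
        show g⁻¹ • (g • b) ∈ B1
        rw [inv_smul_smul]; exact hb
    rw [h1, Set.ncard_image_of_injective _ (MulAction.injective g), hB1]

end Cfsg.Agent.Lib.AtkSys
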