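import Cfsg.Agent.Lib.AtkSys

/-!
Class systems of degree `p ^ 2 + 1`: the two-point stabilisers have order prime to `p` (helper23).
-/

set_option autoImplicit false

namespace Cfsg.Agent.Lib.AtkSys

open MulAction

section

variable {G Ω : Type*} [Group G] [MulAction G Ω] {p : ℕ}

theorem card_eq_orbit_mul [Finite G] (P : Subgroup G) (y : Ω) :
    Nat.card P = (orbit P y).ncard * Nat.card ↥(P ⊓ stabilizer G y) := by
  rw [← index_stabilizer P y, ← Subgroup.card_mul_index (stabilizer P y), mul_comm]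
  congr 1
  have h1 : (stabilizer P y).map P.subtype = P ⊓ stabilizer G y := by
    ext g
    constructor
    · rintro ⟨⟨g, hg⟩, h, rfl⟩
      exact ⟨hg, h⟩
    · rintro ⟨hg, h⟩
      exact ⟨⟨g, hg⟩, h, rfl⟩
  rw [← h1]
  exact (Subgroup.card_map_of_injective P.subtype_injective).symm

theorem ncard_ne [Finite Ω] (hΩ : Nat.card Ω = p ^ 2 + 1) (x : Ω) :
    ({y | y ≠ x} : Set Ω).ncard = p ^ 2 := by
  have h3 := Set.ncard_add_ncard_compl ({x} : Set Ω)
  rw [Set.ncard_singleton, hΩ] at h3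
  have h4 : ({x} : Set Ω)ᶜ = {y | y ≠ x} := rfl
  rw [h4] at h3
  omega

theorem orbit_subset_ne (P : Subgroup G) {x y : Ω} (hP : P ≤ stabilizer G x) (hyx : y ≠ x) :
    orbit P y ⊆ {y | y ≠ x} := by
  rintro _ ⟨⟨g, hg⟩, rfl⟩ h
  have h1 : g • y = x := h
  have h2 : g • x = x := hP hg
  exact hyx (MulAction.injective g (h1.trans h2.symm))

theorem orbit_stabilizer_eq_ne (h2 : TwoT G Ω) {x y : Ω} (hyx : y ≠ x) :
    orbit (stabilizer G x) y = {y | y ≠ x} := by
  apply Set.Subset.antisymm (orbit_subset_ne _ le_rfl hyx)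
  intro z hz
  obtain ⟨g, hg1, hg2⟩ := h2 x y x z hyx.symm (Ne.symm hz)
  exact ⟨⟨g, hg1⟩, hg2⟩

theorem card_stab [Finite G] [Finite Ω] (h2 : TwoT G Ω) (hΩ : Nat.card Ω = p ^ 2 + 1)
    {x y : Ω} (hyx : y ≠ x) :
    Nat.card (stabilizer G x) = p ^ 2 * Nat.card ↥(stabilizer G x ⊓ stabilizer G y) := by
  rw [card_eq_orbit_mul (stabilizer G x) y, orbit_stabilizer_eq_ne h2 hyx, ncard_ne hΩ]

/-- Sylow `p`-subgroups of point stabilisers are transitive on the remaining points. -/
theorem exists_sylow_trans [Finite G] [Finite Ω] [hp : Fact p.Prime] (h2 : TwoT G Ω)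
    (hΩ : Nat.card Ω = p ^ 2 + 1) (x : Ω) :
    ∃ P : Subgroup G, ∃ e : ℕ, P ≤ stabilizer G x ∧ Nat.card P = p ^ (2 + e) ∧
      (∀ y, y ≠ x → Nat.card ↥(P ⊓ stabilizer G y) = p ^ e ∧
        (Nat.card ↥(stabilizer G x ⊓ stabilizer G y)).factorization p = e ∧
        ∀ z, z ≠ x → ∃ g ∈ P, g • y = z) := by
  classical
  obtain ⟨P₀⟩ : Nonempty (Sylow p (stabilizer G x)) := inferInstance
  let P : Subgroup G := (P₀ : Subgroup (stabilizer G x)).map (stabilizer G x).subtype
  have hPle : P ≤ stabilizer G x := Subgroup.map_subtype_le _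
  have hPc : Nat.card P = p ^ (Nat.card (stabilizer G x)).factorization p := by
    rw [Subgroup.card_map_of_injective (stabilizer G x).subtype_injective]
    exact P₀.card_eq_multiplicity
  obtain ⟨y0, hy0⟩ : ∃ y : Ω, y ≠ x := by
    by_contra hcon
    push Not at hcon
    have h1 := ncard_ne hΩ x
    have h3 : ({y | y ≠ x} : Set Ω) = ∅ := by
      ext y
      simp [hcon y]
    rw [h3, Set.ncard_empty] at h1
    have := hp.out.pos
    have h4 : 0 < p ^ 2 := by positivity
    omega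
  have hfac : ∀ y, y ≠ x → (Nat.card (stabilizer G x)).factorization p =
      2 + (Nat.card ↥(stabilizer G x ⊓ stabilizer G y)).factorization p := by
    intro y hy
    rw [card_stab h2 hΩ hy, Nat.factorization_mul (pow_ne_zero _ hp.out.ne_zero)
      (Nat.card_pos (α := ↥(stabilizer G x ⊓ stabilizer G y))).ne']
    simp [hp.out.factorization_self]
  refine ⟨P, (Nat.card ↥(stabilizer G x ⊓ stabilizer G y0)).factorization p, hPle, ?_, ?_⟩
  · rw [hPc, hfac y0 hy0]
  intro y hy
  have he : (Nat.card ↥(stabilizer G x ⊓ stabilizer G y)).factorization p =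
      (Nat.card ↥(stabilizer G x ⊓ stabilizer G y0)).factorization p := by
    have h1 := hfac y hy
    have h3 := hfac y0 hy0
    omega
  set e := (Nat.card ↥(stabilizer G x ⊓ stabilizer G y0)).factorization p with he0
  have hPp : IsPGroup p P := IsPGroup.of_card hPc
  have h1 : Nat.card ↥(P ⊓ stabilizer G y) ≤ p ^ e := by
    obtain ⟨k, hk⟩ := IsPGroup.iff_card.mp (hPp.to_le (inf_le_left : P ⊓ stabilizer G y ≤ P))
    rw [hk]
    apply Nat.pow_le_pow_right hp.out.pos
    rw [← he]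
    have h3 : p ^ k ∣ Nat.card ↥(stabilizer G x ⊓ stabilizer G y) := by
      rw [← hk]
      exact Subgroup.card_dvd_of_le (inf_le_inf_right _ hPle)
    exact (hp.out.pow_dvd_iff_le_factorization Nat.card_pos.ne').mp h3
  have h3 := card_eq_orbit_mul P y
  have h4 : (orbit P y).ncard ≤ p ^ 2 := by
    rw [← ncard_ne hΩ x]
    exact Set.ncard_le_ncard (orbit_subset_ne P hPle hy) (Set.toFinite _)
  rw [hPc, hfac y0 hy0, ← he0, pow_add] at h3
  have hpos : 0 < p ^ 2 := pow_pos hp.out.pos 2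
  have hpos' : 0 < p ^ e := pow_pos hp.out.pos e
  have h5 : Nat.card ↥(P ⊓ stabilizer G y) = p ^ e := by
    apply le_antisymm h1
    by_contra hlt
    push Not at hlt
    have : (orbit P y).ncard * Nat.card ↥(P ⊓ stabilizer G y) < p ^ 2 * p ^ e := by
      calc (orbit P y).ncard * Nat.card ↥(P ⊓ stabilizer G y)
          ≤ p ^ 2 * Nat.card ↥(P ⊓ stabilizer G y) := Nat.mul_le_mul_right _ h4
        _ < p ^ 2 * p ^ e := Nat.mul_lt_mul_of_pos_left hlt hpos
    omega
  have h6 : (orbit P y).ncard = p ^ 2 := by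
    rw [h5] at h3
    exact (Nat.eq_of_mul_eq_mul_right hpos' h3).symm
  refine ⟨h5, he, ?_⟩
  intro z hz
  have h7 : orbit P y = {y | y ≠ x} := by
    apply Set.eq_of_subset_of_ncard_le (orbit_subset_ne P hPle hy)
    rw [h6, ncard_ne hΩ]
  have h8 : z ∈ orbit P y := by rw [h7]; exact hz
  obtain ⟨⟨g, hg⟩, hgz⟩ := h8
  exact ⟨g, hg, hgz⟩

/-- The stabiliser of a class in a subgroup of a point stabiliser. -/
def Sys.clsStab (S : Sys G Ω p) (P : Subgroup G) {x : Ω} (hP : P ≤ stabilizer G x) {y : Ω}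
    (hy : y ≠ x) : Subgroup G where
  carrier := {g | g ∈ P ∧ S.rel x y (g • y)}
  mul_mem' := by
    rintro g h ⟨hg, hg'⟩ ⟨hh, hh'⟩
    refine ⟨mul_mem hg hh, ?_⟩
    have h1 := S.smul g hh'
    rw [hP hg, ← mul_smul] at h1
    exact S.trans hg' h1
  one_mem' := ⟨one_mem _, by rw [one_smul]; exact S.refl hy⟩
  inv_mem' := by
    rintro g ⟨hg, hg'⟩
    refine ⟨inv_mem hg, ?_⟩
    have h1 := S.smul g⁻¹ hg'
    rw [hP (inv_mem hg), inv_smul_smul] at h1
    exact S.symm h1

theorem Sys.card_clsStab [Finite G] [Finite Ω] (S : Sys G Ω p) (P : Subgroup G) {x : Ω}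
    (hP : P ≤ stabilizer G x) {y : Ω} (hy : y ≠ x) (htr : ∀ z, z ≠ x → ∃ g ∈ P, g • y = z) :
    Nat.card (S.clsStab P hP hy) = p * Nat.card ↥(P ⊓ stabilizer G y) := by
  rw [card_eq_orbit_mul (S.clsStab P hP hy) y]
  congr 1
  · refine Eq.trans ?_ (S.card hy)
    congr 1
    ext z
    constructor
    · rintro ⟨⟨g, hg⟩, rfl⟩
      exact hg.2
    · intro hz
      have hz' : S.rel x y z := hz
      obtain ⟨g, hg, rfl⟩ := htr z (S.ne' hz')
      exact ⟨⟨g, hg, hz'⟩, rfl⟩
  · congr 2
    ext g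
    constructor
    · rintro ⟨h1, h3⟩
      exact ⟨h1.1, h3⟩
    · rintro ⟨h1, h3⟩
      refine ⟨⟨h1, ?_⟩, h3⟩
      have h4 : g • y = y := h3
      rw [h4]
      exact S.refl hy

theorem Sys.clsStab_le (S : Sys G Ω p) (P : Subgroup G) {x : Ω}
    (hP : P ≤ stabilizer G x) {y : Ω} (hy : y ≠ x) : S.clsStab P hP hy ≤ P := fun _ hg => hg.1

/-- The two-point stabilisers have order prime to `p`. -/
theorem Sys.not_dvd [Finite G] [Finite Ω] [FaithfulSMul G Ω] [hp : Fact p.Prime] (S : Sys G Ω p)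
    (h2 : TwoT G Ω) (hΩ : Nat.card Ω = p ^ 2 + 1) {x y : Ω} (hxy : x ≠ y) :
    ¬ p ∣ Nat.card ↥(stabilizer G x ⊓ stabilizer G y) := by
  classical
  intro hdvd
  obtain ⟨P, e, hP, hPc, hPy⟩ := exists_sylow_trans (G := G) h2 hΩ x
  have hyx : y ≠ x := hxy.symm
  have he : 1 ≤ e := by
    rw [← (hPy y hyx).2.1]
    exact (hp.out.dvd_iff_one_le_factorization Nat.card_pos.ne').mp hdvd
  have hPp : IsPGroup p P := IsPGroup.of_card hPc
  -- the stabiliser of a point fixes its class
  have hfix : ∀ y, y ≠ x → ∀ z, S.rel x y z → ∀ r ∈ P, r • y = y → r • z = z := by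
    intro y hy z hz r hr hry
    have htr := (hPy y hy).2.2
    obtain ⟨g, hg, hgz⟩ := htr z (S.ne' hz)
    have hgC : g ∈ S.clsStab P hP hy := ⟨hg, by rw [hgz]; exact hz⟩
    have hcC := S.card_clsStab P hP hy htr
    have hRC : P ⊓ stabilizer G y ≤ S.clsStab P hP hy := by
      rintro a ⟨ha, ha'⟩
      refine ⟨ha, ?_⟩
      have h4 : a • y = y := ha'
      rw [h4]
      exact S.refl hy
    have hidx : ((P ⊓ stabilizer G y).subgroupOf (S.clsStab P hP hy)).index = p := by
      have h1 := Subgroup.card_mul_index ((P ⊓ stabilizer G y).subgroupOf (S.clsStab P hP hy))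
      rw [hcC] at h1
      have h3 : Nat.card ((P ⊓ stabilizer G y).subgroupOf (S.clsStab P hP hy)) =
          Nat.card ↥(P ⊓ stabilizer G y) := by
        rw [← Subgroup.card_map_of_injective (S.clsStab P hP hy).subtype_injective,
          Subgroup.map_subgroupOf_eq_of_le hRC]
      rw [h3, mul_comm] at h1
      exact Nat.eq_of_mul_eq_mul_right Nat.card_pos h1
    have hnorm : ((P ⊓ stabilizer G y).subgroupOf (S.clsStab P hP hy)).Normal := by
      apply Subgroup.normal_of_index_eq_minFac_card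
      rw [hidx, hcC, (hPy y hy).1, ← pow_succ', Nat.Prime.pow_minFac hp.out (Nat.succ_ne_zero e)]
    have h5 := hnorm.conj_mem ⟨r, hRC ⟨hr, hry⟩⟩ (by
      rw [Subgroup.mem_subgroupOf]; exact ⟨hr, hry⟩) ⟨g, hgC⟩⁻¹
    rw [Subgroup.mem_subgroupOf] at h5
    have h6 : (g⁻¹ * r * g⁻¹⁻¹) • y = y := h5.2
    rw [inv_inv, mul_smul, mul_smul, hgz, inv_smul_eq_iff, hgz] at h6
    exact h6
  set R : Subgroup G := P ⊓ stabilizer G y with hR
  have hRc : Nat.card R = p ^ e := (hPy y hyx).1
  have hRne : R ≠ ⊥ := by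
    intro h
    rw [h, Subgroup.card_bot] at hRc
    have := hp.out.one_lt
    have h3 : 1 < p ^ e := Nat.one_lt_pow (by omega) this
    omega
  -- the fixed points of `R` form the class of `y`
  have hfix2 : ∀ z, z ≠ x → (∀ r ∈ R, r • z = z) → S.rel x y z := by
    intro z hz hRz
    by_contra hcon
    apply hRne
    obtain ⟨g, hg, hgz⟩ := (hPy y hyx).2.2 z hz
    have hRz' : R = P ⊓ stabilizer G z := by
      apply Subgroup.eq_of_le_of_card_ge
      · intro r hr
        exact ⟨hr.1, hRz r hr⟩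
      · rw [hRc, (hPy z hz).1]
    let N : Subgroup G := P ⊓ Subgroup.normalizer (R : Set G)
    have hCN : S.clsStab P hP hyx ≤ N := by
      intro a ha
      refine Subgroup.mem_inf.mpr ⟨ha.1, ?_⟩
      have h1 : ∀ b ∈ S.clsStab P hP hyx, ∀ r ∈ R, b * r * b⁻¹ ∈ R := by
        intro b hb r hr
        refine Subgroup.mem_inf.mpr ⟨P.mul_mem (P.mul_mem hb.1 hr.1) (P.inv_mem hb.1), ?_⟩
        show (b * r * b⁻¹) • y = y
        have hb' : b⁻¹ ∈ S.clsStab P hP hyx := inv_mem hb
        rw [mul_smul, mul_smul, hfix y hyx _ hb'.2 r hr.1 hr.2, smul_inv_smul]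
      rw [Subgroup.mem_normalizer_iff]
      intro r
      constructor
      · exact h1 a ha r
      · intro h3
        have h4 := h1 a⁻¹ (inv_mem ha) _ h3
        simpa [mul_assoc] using h4
    have hgN : g ∈ N := by
      refine Subgroup.mem_inf.mpr ⟨hg, ?_⟩
      rw [Subgroup.mem_normalizer_iff]
      intro r
      constructor
      · intro hr
        rw [hRz']
        refine Subgroup.mem_inf.mpr ⟨P.mul_mem (P.mul_mem hg hr.1) (P.inv_mem hg), ?_⟩
        show (g * r * g⁻¹) • z = z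
        have h3 : r • y = y := hr.2
        rw [← hgz, mul_smul, mul_smul, inv_smul_smul, h3]
      · intro hr
        have hr2 := hr
        rw [hRz'] at hr
        have h3 : (g * r * g⁻¹) • z = z := hr.2
        rw [← hgz, mul_smul, mul_smul, inv_smul_smul] at h3
        refine ⟨?_, MulAction.injective g h3⟩
        have h4 := mul_mem (mul_mem (inv_mem hg) hr2.1) hg
        simpa [mul_assoc] using h4
    have hgC : g ∉ S.clsStab P hP hyx := by
      intro h
      have := h.2
      rw [hgz] at this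
      exact hcon this
    have hlt : S.clsStab P hP hyx < N := lt_of_le_of_ne hCN (fun h => hgC (h ▸ hgN))
    have hNP : N = P := by
      apply Subgroup.eq_of_le_of_card_ge inf_le_left
      obtain ⟨k, hk⟩ := IsPGroup.iff_card.mp (hPp.to_le (inf_le_left : N ≤ P))
      have h1 : Nat.card (S.clsStab P hP hyx) = p ^ (e + 1) := by
        rw [S.card_clsStab P hP hyx (hPy y hyx).2.2, (hPy y hyx).1, ← pow_succ']
      have h3 : Nat.card (S.clsStab P hP hyx) < Nat.card N := by
        by_contra h4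
        push Not at h4
        exact hlt.ne (Subgroup.eq_of_le_of_card_ge hCN h4)
      rw [h1, hk] at h3
      have h4 : e + 1 < k := (Nat.pow_lt_pow_iff_right hp.out.one_lt).mp h3
      rw [hk, hPc]
      exact Nat.pow_le_pow_right hp.out.pos (by omega)
    rw [Subgroup.eq_bot_iff_forall]
    intro r hr
    apply FaithfulSMul.eq_of_smul_eq_smul (α := Ω)
    intro v
    rw [one_smul]
    by_cases hv : v = x
    · rw [hv]; exact hP hr.1
    · obtain ⟨a, ha, rfl⟩ := (hPy y hyx).2.2 v hv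
      have ha' : a ∈ N := by rw [hNP]; exact ha
      have h1 := ((Subgroup.mem_normalizer_iff.mp (inv_mem (Subgroup.mem_inf.mp ha').2)) r).mp hr
      have h3 : (a⁻¹ * r * a⁻¹⁻¹) • y = y := h1.2
      rw [inv_inv, mul_smul, mul_smul, inv_smul_eq_iff] at h3
      exact h3
  -- an element swapping `x` and `y` normalising `R`
  obtain ⟨s, hsx, hsy, hsR⟩ : ∃ s : G, s • x = y ∧ s • y = x ∧ ∀ r ∈ R, s⁻¹ * r * s ∈ R := by
    obtain ⟨t, htx, hty⟩ := h2 x y y x hxy hyx
    set D : Subgroup G := stabilizer G x ⊓ stabilizer G y with hD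
    have hRD : R ≤ D := inf_le_inf_right _ hP
    have hR'D : R.map (MulAut.conj t).toMonoidHom ≤ D := by
      rintro _ ⟨r, hr, rfl⟩
      have h1 : r • x = x := hP hr.1
      have h3 : r • y = y := hr.2
      constructor
      · show (t * r * t⁻¹) • x = x
        rw [mul_smul, mul_smul, ← hty, inv_smul_smul, h3]
      · show (t * r * t⁻¹) • y = y
        rw [mul_smul, mul_smul, ← htx, inv_smul_smul, h1]
    have hc1 : Nat.card (R.subgroupOf D) = p ^ (Nat.card D).factorization p := by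
      rw [← Subgroup.card_map_of_injective D.subtype_injective,
          Subgroup.map_subgroupOf_eq_of_le hRD, hRc, (hPy y hyx).2.1]
    have hc2 : Nat.card ((R.map (MulAut.conj t).toMonoidHom).subgroupOf D) =
        p ^ (Nat.card D).factorization p := by
      rw [← Subgroup.card_map_of_injective D.subtype_injective,
          Subgroup.map_subgroupOf_eq_of_le hR'D,
          Subgroup.card_map_of_injective (MulAut.conj t).injective, hRc, (hPy y hyx).2.1]
    obtain ⟨h, hh⟩ := MulAction.exists_smul_eq D (Sylow.ofCard _ hc1) (Sylow.ofCard _ hc2)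
    refine ⟨(h : G)⁻¹ * t, ?_, ?_, ?_⟩
    · rw [mul_smul, htx, inv_smul_eq_iff]
      exact (h.2.2).symm
    · rw [mul_smul, hty, inv_smul_eq_iff]
      exact (h.2.1).symm
    · -- `h R h⁻¹ = t R t⁻¹`
      have h1 : ∀ r ∈ R, ∃ r' ∈ R, t * r' * t⁻¹ = h * r * (h : G)⁻¹ := by
        intro r hr
        have h3 : (⟨r, hRD hr⟩ : D) ∈ ((Sylow.ofCard _ hc1 : Sylow p D) : Subgroup D) := by
          rw [Sylow.coe_ofCard, Subgroup.mem_subgroupOf]; exact hr
        have h4 : h * ⟨r, hRD hr⟩ * h⁻¹ ∈ ((h • (Sylow.ofCard _ hc1) : Sylow p D) : Subgroup D) := by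
          rw [Sylow.smul_def, Sylow.pointwise_smul_def]
          exact Subgroup.smul_mem_pointwise_smul _ (MulAut.conj h) _ h3
        rw [hh, Sylow.coe_ofCard, Subgroup.mem_subgroupOf] at h4
        obtain ⟨r', hr', hr''⟩ := h4
        exact ⟨r', hr', hr''⟩
      intro r hr
      obtain ⟨r', hr', hr''⟩ := h1 r hr
      have : ((h : G)⁻¹ * t)⁻¹ * r * ((h : G)⁻¹ * t) = r' := by
        rw [mul_inv_rev, inv_inv]
        have h5 : r' = t⁻¹ * (h * r * (h : G)⁻¹) * t := by rw [← hr'']; group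
        rw [h5]; group
      rw [this]
      exact hr'
  have hsR' : ∀ r ∈ R, s * r * s⁻¹ ∈ R := by
    have h1 : R.map (MulAut.conj s⁻¹).toMonoidHom = R := by
      apply Subgroup.eq_of_le_of_card_ge
      · rintro _ ⟨r, hr, rfl⟩
        have := hsR r hr
        simpa using this
      · rw [Subgroup.card_map_of_injective (MulAut.conj s⁻¹).injective]
    intro r hr
    rw [← h1] at hr
    obtain ⟨r', hr', rfl⟩ := hr
    have : s * (MulAut.conj s⁻¹).toMonoidHom r' * s⁻¹ = r' := by
      simp [mul_assoc]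
    rw [this]
    exact hr'
  apply S.not_sym h2 hΩ hp.out.two_le hxy
  have hA : ∀ z, z ≠ x → (S.rel x y z ↔ ∀ r ∈ R, r • z = z) := by
    intro z hz
    constructor
    · intro h r hr
      exact hfix y hyx z h r hr.1 hr.2
    · exact hfix2 z hz
  intro z hzx hzy
  rw [hA z hzx]
  have h1 : S.rel y x z ↔ S.rel x y (s⁻¹ • z) := by
    have h3 : s⁻¹ • y = x := by rw [inv_smul_eq_iff]; exact hsx.symm
    have h4 : s⁻¹ • x = y := by rw [inv_smul_eq_iff]; exact hsy.symm
    rw [← S.rel_smul_iff s⁻¹, h3, h4]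
  have h3 : s⁻¹ • z ≠ x := by
    intro h
    rw [inv_smul_eq_iff, hsx] at h
    exact hzy h
  rw [h1, hA _ h3]
  constructor
  · intro h r hr
    rw [eq_inv_smul_iff, ← mul_smul]
    have h6 := h _ (hsR' r hr)
    have h7 : (s * r * s⁻¹) • z = (s * r) • (s⁻¹ • z) := mul_smul _ _ _
    rw [← h7]
    exact h6
  · intro h r hr
    have h4 := h _ (hsR r hr)
    rw [mul_smul, mul_smul, smul_inv_smul, inv_smul_eq_iff, smul_inv_smul] at h4
    exact h4

end

end Cfsg.Agent.Lib.AtkSys
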