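import Cfsg.Agent.Lib.AtkSys2
import Cfsg.Agent.Lib.PrimeDegree

/-!
Class systems of degree `p ^ 2 + 1`: frames, the kernels on the classes (helper23).
-/

set_option autoImplicit false

namespace Cfsg.Agent.Lib.AtkSys

open MulAction

section

variable {G Ω : Type*} [Group G] [MulAction G Ω] {p : ℕ}

/-- The kernel of the stabiliser of `x` on its classes. -/
def Sys.K (S : Sys G Ω p) (x : Ω) : Subgroup G where
  carrier := {g | g • x = x ∧ ∀ z, z ≠ x → S.rel x z (g • z)}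
  mul_mem' := by
    rintro g h ⟨hg, hg'⟩ ⟨hh, hh'⟩
    refine ⟨by rw [mul_smul, hh, hg], ?_⟩
    intro z hz
    have h1 := hh' z hz
    have h3 := hg' (h • z) (S.ne' h1)
    rw [← mul_smul] at h3
    exact S.trans h1 h3
  one_mem' := ⟨one_smul _ _, fun z hz => by rw [one_smul]; exact S.refl hz⟩
  inv_mem' := by
    rintro g ⟨hg, hg'⟩
    have h0 : g⁻¹ • x = x := by rw [inv_smul_eq_iff, hg]
    refine ⟨h0, ?_⟩
    intro z hz
    have h1 : g⁻¹ • z ≠ x := by
      intro h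
      rw [inv_smul_eq_iff, hg] at h
      exact hz h
    have h3 := hg' _ h1
    rw [smul_inv_smul] at h3
    exact S.symm h3

theorem Sys.K_le (S : Sys G Ω p) (x : Ω) : S.K x ≤ stabilizer G x := fun _ h => h.1

theorem Sys.K_conj (S : Sys G Ω p) {x : Ω} (g : G) {k : G} (hk : k ∈ S.K x) :
    g * k * g⁻¹ ∈ S.K (g • x) := by
  refine ⟨?_, ?_⟩
  · rw [mul_smul, mul_smul, inv_smul_smul, hk.1]
  · intro z hz
    have h1 : g⁻¹ • z ≠ x := by
      intro h
      rw [inv_smul_eq_iff] at h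
      exact hz h
    have h3 := S.smul g (hk.2 _ h1)
    rw [smul_inv_smul] at h3
    rw [mul_smul, mul_smul]
    exact h3

theorem Sys.K_conj' (S : Sys G Ω p) {x : Ω} {g : G} (hg : g • x = x) {k : G} (hk : k ∈ S.K x) :
    g * k * g⁻¹ ∈ S.K x := by
  have := S.K_conj g hk
  rwa [hg] at this

theorem Sys.rel_K (S : Sys G Ω p) {x y z : Ω} {k : G} (hk : k ∈ S.K x) (h : S.rel x y z) :
    S.rel x y (k • z) := S.trans h (hk.2 z (S.ne' h))

/-- The class of `y`. -/
def Sys.Cls (S : Sys G Ω p) (x y : Ω) := {z : Ω // S.rel x y z}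

/-- Elements of a class. -/
def Sys.mkCls (S : Sys G Ω p) {x y z : Ω} (h : S.rel x y z) : S.Cls x y := ⟨z, h⟩

instance (S : Sys G Ω p) (x y : Ω) : MulAction (S.K x) (S.Cls x y) where
  smul k z := ⟨k.1 • z.1, S.rel_K k.2 z.2⟩
  one_smul z := Subtype.ext (one_smul G z.1)
  mul_smul g h z := Subtype.ext (mul_smul g.1 h.1 z.1)

theorem Sys.cls_smul_val (S : Sys G Ω p) (x y : Ω) (k : S.K x) (z : S.Cls x y) :
    (k • z).1 = k.1 • z.1 := rfl

instance [Finite Ω] (S : Sys G Ω p) (x y : Ω) : Finite (S.Cls x y) :=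
  inferInstanceAs (Finite {z : Ω // S.rel x y z})

/-- A frame at the point `x`: a regular abelian `p`-group on the other points. -/
structure Frame (S : Sys G Ω p) (x : Ω) where
  P : Subgroup G
  le : P ≤ stabilizer G x
  card : Nat.card P = p ^ 2
  comm : ∀ a ∈ P, ∀ b ∈ P, a * b = b * a
  reg : ∀ {y}, y ≠ x → ∀ {g}, g ∈ P → g • y = y → g = 1
  tr : ∀ {y z}, y ≠ x → z ≠ x → ∃ g ∈ P, g • y = z
  q : G
  qP : q ∈ P
  qK : q ∈ S.K x
  qp : q ^ p = 1
  q1 : q ≠ 1
  PK : ∀ {g}, g ∈ P → g ∈ S.K x → ∃ i : ℕ, g = q ^ i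
  cls : ∀ {y z}, S.rel x y z → ∃ i : ℕ, q ^ i • y = z

/-- An element of an abelian transitive group preserving one class preserves all. -/
theorem Sys.mem_K_of_rel (S : Sys G Ω p) {x : Ω} {P : Subgroup G} (hP : P ≤ stabilizer G x)
    (comm : ∀ a ∈ P, ∀ b ∈ P, a * b = b * a) (tr : ∀ y z, y ≠ x → z ≠ x → ∃ g ∈ P, g • y = z)
    {g : G} (hg : g ∈ P) {y : Ω} (h : S.rel x y (g • y)) : g ∈ S.K x := by
  refine ⟨hP hg, ?_⟩
  intro z hz
  obtain ⟨a, ha, haz⟩ := tr y z (S.ne h) hz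
  have h1 := S.smul a h
  have ha' : a • x = x := hP ha
  rw [ha', ← mul_smul, comm a ha g hg, mul_smul, haz] at h1
  exact h1

theorem Sys.exists_frame [Finite G] [Finite Ω] [FaithfulSMul G Ω] [hp : Fact p.Prime]
    (S : Sys G Ω p) (h2 : TwoT G Ω) (hΩ : Nat.card Ω = p ^ 2 + 1) (x : Ω) :
    Nonempty (Frame S x) := by
  classical
  obtain ⟨P, e, hP, hPc, hPy⟩ := exists_sylow_trans (G := G) h2 hΩ x
  obtain ⟨y, hy⟩ : ∃ y : Ω, y ≠ x := by
    by_contra hcon
    push Not at hcon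
    have h1 := ncard_ne hΩ x
    have h3 : ({y | y ≠ x} : Set Ω) = ∅ := by
      ext y
      simp [hcon y]
    rw [h3, Set.ncard_empty] at h1
    have := hp.out.pos
    have h4 : 0 < p ^ 2 := by positivity
    omega
  have he : e = 0 := by
    by_contra he
    apply S.not_dvd h2 hΩ hy.symm
    rw [hp.out.dvd_iff_one_le_factorization Nat.card_pos.ne', (hPy y hy).2.1]
    omega
  subst he
  have hPc' : Nat.card P = p ^ 2 := by simpa using hPc
  have hcomm : ∀ a ∈ P, ∀ b ∈ P, a * b = b * a := by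
    have h1 := IsPGroup.isMulCommutative_of_card_eq_prime_sq hPc'
    intro a ha b hb
    exact congrArg Subtype.val (h1.is_comm.comm ⟨a, ha⟩ ⟨b, hb⟩)
  have hreg : ∀ y, y ≠ x → ∀ g ∈ P, g • y = y → g = 1 := by
    intro y hy g hg hgy
    have h1 := (hPy y hy).1
    rw [pow_zero, Subgroup.card_eq_one] at h1
    have h3 : g ∈ P ⊓ stabilizer G y := ⟨hg, hgy⟩
    rw [h1, Subgroup.mem_bot] at h3
    exact h3
  have htr : ∀ y z, y ≠ x → z ≠ x → ∃ g ∈ P, g • y = z := fun y z hy hz => (hPy y hy).2.2 z hz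
  have hKC : P ⊓ S.K x = S.clsStab P hP hy := by
    ext g
    constructor
    · rintro ⟨h1, h3⟩
      exact ⟨h1, h3.2 y hy⟩
    · rintro ⟨h1, h3⟩
      exact Subgroup.mem_inf.mpr ⟨h1, S.mem_K_of_rel hP hcomm htr h1 h3⟩
  have hKc : Nat.card ↥(P ⊓ S.K x) = p := by
    rw [hKC, S.card_clsStab P hP hy (fun z hz => htr y z hy hz), (hPy y hy).1, pow_zero, mul_one]
  have : Fact (Nat.card ↥(P ⊓ S.K x)).Prime := ⟨by rw [hKc]; exact hp.out⟩
  have hcyc : IsCyclic ↥(P ⊓ S.K x) := isCyclic_of_prime_card hKc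
  obtain ⟨q, hq⟩ := hcyc.exists_generator
  have hqo : orderOf q = p := Eq.trans (orderOf_eq_card_of_forall_mem_zpowers hq) hKc
  have hgen : ∀ g ∈ P, g ∈ S.K x → ∃ i : ℕ, g = (q : G) ^ i := by
    intro g hg hgK
    have h1 := hq ⟨g, Subgroup.mem_inf.mpr ⟨hg, hgK⟩⟩
    rw [← mem_powers_iff_mem_zpowers] at h1
    obtain ⟨i, hi⟩ := h1
    refine ⟨i, ?_⟩
    have := congrArg Subtype.val hi
    exact this.symm
  refine ⟨{
    P := P
    le := hP
    card := hPc'
    comm := hcomm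
    reg := fun {y} hy {g} hg h => hreg y hy g hg h
    tr := fun {y z} hy hz => htr y z hy hz
    q := q
    qP := (Subgroup.mem_inf.mp q.2).1
    qK := (Subgroup.mem_inf.mp q.2).2
    qp := ?_
    q1 := ?_
    PK := fun {g} hg hg' => hgen g hg hg'
    cls := ?_ }⟩
  · have h1 := pow_orderOf_eq_one q
    rw [hqo] at h1
    exact congrArg Subtype.val h1
  · intro h
    have h1 : q = 1 := Subtype.ext h
    rw [h1, orderOf_one] at hqo
    exact hp.out.one_lt.ne hqo
  · intro y z h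
    obtain ⟨g, hg, hgz⟩ := htr y z (S.ne h) (S.ne' h)
    have h1 : g ∈ S.K x := S.mem_K_of_rel hP hcomm htr hg (by rw [hgz]; exact h)
    obtain ⟨i, rfl⟩ := hgen g hg h1
    exact ⟨i, hgz⟩

end

section

variable {G Ω : Type*} [Group G] [MulAction G Ω] {p : ℕ} [Finite G] [Finite Ω]
  [FaithfulSMul G Ω] [hp : Fact p.Prime] {S : Sys G Ω p} {x : Ω}

omit [Finite G] [Finite Ω] [FaithfulSMul G Ω] hp in
theorem Frame.qx (F : Frame S x) (i : ℕ) : F.q ^ i • x = x := F.le (pow_mem F.qP i)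

omit [Finite G] [Finite Ω] [FaithfulSMul G Ω] hp in
theorem Frame.rel_q (F : Frame S x) {y : Ω} (hy : y ≠ x) (i : ℕ) : S.rel x y (F.q ^ i • y) :=
  (pow_mem F.qK i).2 y hy

omit [Finite G] [Finite Ω] [FaithfulSMul G Ω] in
theorem Frame.orderOf_q (F : Frame S x) : orderOf F.q = p :=
  orderOf_eq_prime F.qp F.q1

omit [Finite G] [Finite Ω] [FaithfulSMul G Ω] in
/-- Coordinates on a class. -/
theorem Frame.exists_coord (F : Frame S x) {y : Ω} (hy : y ≠ x) :
    ∃ e : ZMod p ≃ S.Cls x y, (∀ j, (e j).1 = F.q ^ j.val • y) ∧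
      ∀ j, (⟨F.q, F.qK⟩ : S.K x) • e j = e (j + 1) := by
  have hmod : ∀ n : ℕ, F.q ^ (n % p) = F.q ^ n := by
    intro n
    have := pow_mod_orderOf F.q n
    rwa [F.orderOf_q] at this
  let f : ZMod p → S.Cls x y := fun j => ⟨F.q ^ j.val • y, F.rel_q hy _⟩
  have hf : Function.Bijective f := by
    constructor
    · intro i j hij
      have h1 : F.q ^ i.val • y = F.q ^ j.val • y := congrArg Subtype.val hij
      have h3 : ((F.q ^ j.val)⁻¹ * F.q ^ i.val) • y = y := by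
        rw [mul_smul, h1, inv_smul_smul]
      have h4 := F.reg hy (mul_mem (inv_mem (pow_mem F.qP _)) (pow_mem F.qP _)) h3
      have h5 : F.q ^ i.val = F.q ^ j.val := (inv_mul_eq_one.mp h4).symm
      have h6 := pow_injOn_Iio_orderOf (x := F.q)
        (by rw [F.orderOf_q]; exact ZMod.val_lt i) (by rw [F.orderOf_q]; exact ZMod.val_lt j) h5
      exact ZMod.val_injective p h6
    · rintro ⟨z, hz⟩
      obtain ⟨i, hi⟩ := F.cls hz
      refine ⟨(i : ZMod p), Subtype.ext ?_⟩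
      show F.q ^ (i : ZMod p).val • y = z
      rw [ZMod.val_natCast, hmod, hi]
  refine ⟨Equiv.ofBijective f hf, fun j => rfl, ?_⟩
  intro j
  apply Subtype.ext
  show F.q • (F.q ^ j.val • y) = F.q ^ (j + 1).val • y
  have h1 : (1 : ZMod p).val = 1 := by
    have : Fact (1 < p) := ⟨hp.out.one_lt⟩
    exact ZMod.val_one p
  rw [ZMod.val_add, h1, hmod, pow_succ', mul_smul]

omit [Finite G] [Finite Ω] [FaithfulSMul G Ω] in
theorem Frame.card_cls (F : Frame S x) {y : Ω} (hy : y ≠ x) : Nat.card (S.Cls x y) = p := by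
  obtain ⟨e, -, -⟩ := F.exists_coord hy
  rw [← Nat.card_congr e, Nat.card_zmod]

omit [Finite G] [Finite Ω] [FaithfulSMul G Ω] hp in
theorem Frame.pretransitive (F : Frame S x) {y : Ω} : IsPretransitive (S.K x) (S.Cls x y) := by
  refine ⟨fun u v => ?_⟩
  obtain ⟨i, hi⟩ := F.cls (S.trans (S.symm u.2) v.2)
  exact ⟨⟨F.q, F.qK⟩ ^ i, Subtype.ext hi⟩

omit [Finite G] [Finite Ω] in
/-- Normal subgroups of the kernel of order prime to `p` are trivial. -/
theorem Frame.eq_bot_of_normal (F : Frame S x) (N : Subgroup G)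
    (hN : N ≤ S.K x) (hn : ∀ k ∈ S.K x, ∀ n ∈ N, k * n * k⁻¹ ∈ N) (hpN : ¬ p ∣ Nat.card N) :
    N = ⊥ := by
  classical
  rw [Subgroup.eq_bot_iff_forall]
  intro n hnN
  apply FaithfulSMul.eq_of_smul_eq_smul (α := Ω)
  intro y
  rw [one_smul]
  by_cases hy : y = x
  · rw [hy]; exact (hN hnN).1
  have hpt : IsPretransitive (S.K x) (S.Cls x y) := F.pretransitive
  have hprim : IsPreprimitive (S.K x) (S.Cls x y) := by
    apply IsPreprimitive.of_prime_card
    rw [F.card_cls hy]; exact hp.out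
  have hnorm : (N.subgroupOf (S.K x)).Normal := by
    refine ⟨fun a ha k => ?_⟩
    rw [Subgroup.mem_subgroupOf] at ha ⊢
    exact hn k k.2 a ha
  by_contra hny
  have hq : IsQuasiPreprimitive (S.K x) (S.Cls x y) := inferInstance
  have h1 : fixedPoints (N.subgroupOf (S.K x)) (S.Cls x y) ≠ .univ := by
    intro h
    have h3 : S.mkCls (S.refl hy) ∈ fixedPoints (N.subgroupOf (S.K x)) (S.Cls x y) := by
      rw [h]; trivial
    have h4 := h3 ⟨⟨n, hN hnN⟩, by rw [Subgroup.mem_subgroupOf]; exact hnN⟩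
    exact hny (congrArg Subtype.val h4)
  have h3 : IsPretransitive (N.subgroupOf (S.K x)) (S.Cls x y) :=
    hq.isPretransitive_of_normal h1
  apply hpN
  have h4 := index_stabilizer_of_transitive (N.subgroupOf (S.K x)) (S.mkCls (S.refl hy))
  rw [F.card_cls hy] at h4
  have h5 := Subgroup.index_dvd_card
    (stabilizer (N.subgroupOf (S.K x)) (S.mkCls (S.refl hy)))
  rw [h4] at h5
  have h6 : Nat.card (N.subgroupOf (S.K x)) = Nat.card N := by
    rw [← Subgroup.card_map_of_injective (S.K x).subtype_injective,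
      Subgroup.map_subgroupOf_eq_of_le hN]
  rwa [h6] at h5

/-- An element of the kernel fixing a class pointwise is trivial. -/
theorem Frame.eq_one_of_fix (F : Frame S x) (h2 : TwoT G Ω) (hΩ : Nat.card Ω = p ^ 2 + 1)
    {y : Ω} (hy : y ≠ x) {k : G} (hk : k ∈ S.K x) (hfix : ∀ z, S.rel x y z → k • z = z) :
    k = 1 := by
  let N : Subgroup G :=
    { carrier := {k | k ∈ S.K x ∧ ∀ z, S.rel x y z → k • z = z}
      mul_mem' := by
        rintro a b ⟨ha, ha'⟩ ⟨hb, hb'⟩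
        exact ⟨mul_mem ha hb, fun z hz => by rw [mul_smul, hb' z hz, ha' z hz]⟩
      one_mem' := ⟨one_mem _, fun z _ => one_smul _ _⟩
      inv_mem' := by
        rintro a ⟨ha, ha'⟩
        exact ⟨inv_mem ha, fun z hz => by rw [inv_smul_eq_iff, ha' z hz]⟩ }
  have hNb : N = ⊥ := by
    apply F.eq_bot_of_normal N (fun _ h => h.1)
    · rintro a ha n ⟨hn, hn'⟩
      refine ⟨mul_mem (mul_mem ha hn) (inv_mem ha), ?_⟩
      intro z hz
      rw [mul_smul, mul_smul, hn' _ (S.rel_K (inv_mem ha) hz), smul_inv_smul]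
    · intro hdvd
      apply S.not_dvd h2 hΩ (x := x) (y := y) (Ne.symm hy)
      refine hdvd.trans (Subgroup.card_dvd_of_le ?_)
      rintro a ⟨ha, ha'⟩
      exact ⟨ha.1, ha' y (S.refl hy)⟩
  have h1 : k ∈ N := ⟨hk, hfix⟩
  rwa [hNb, Subgroup.mem_bot] at h1

/-- Either the regular subgroup of order `p` is normal in the kernel or the kernel is doubly
transitive on each class. -/
theorem Frame.dichotomy (F : Frame S x) (h2 : TwoT G Ω) (hΩ : Nat.card Ω = p ^ 2 + 1) :
    (∀ k ∈ S.K x, ∃ i : ℕ, k * F.q * k⁻¹ = F.q ^ i) ∨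
    (∀ y, y ≠ x → ∀ u v u' v', S.rel x y u → S.rel x y v → S.rel x y u' → S.rel x y v' →
      u ≠ v → u' ≠ v' → ∃ k ∈ S.K x, k • u = u' ∧ k • v = v') := by
  classical
  by_cases hcase : ∀ k ∈ S.K x, ∃ i : ℕ, k * F.q * k⁻¹ = F.q ^ i
  · left; exact hcase
  right
  intro y hy
  obtain ⟨e, he, hes⟩ := F.exists_coord hy
  have hpt : IsPretransitive (S.K x) (S.Cls x y) := F.pretransitive
  rcases Cfsg.Agent.Lib.PrimeDegree.affine_or_two_transitive e _ hes with h | h
  · exfalso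
    apply hcase
    intro k hk
    obtain ⟨a, b, hab⟩ := h ⟨k, hk⟩
    have hstep : ∀ (n : ℕ) (j : ZMod p), (⟨F.q, F.qK⟩ : S.K x) ^ n • e j = e (j + n) := by
      intro n
      induction n with
      | zero => intro j; simp
      | succ n ih => intro j; rw [pow_succ', mul_smul, ih, hes]; push_cast; ring_nf
    have ha : a ≠ 0 := by
      intro ha
      have h3 := hab 0
      have h4 := hab 1
      rw [ha, zero_mul] at h3 h4
      have h5 := MulAction.injective _ (h3.trans h4.symm)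
      exact zero_ne_one (e.injective h5)
    refine ⟨a.val, ?_⟩
    have hk1 : k * F.q * k⁻¹ * (F.q ^ a.val)⁻¹ = 1 := by
      apply F.eq_one_of_fix h2 hΩ hy
      · exact mul_mem (mul_mem (mul_mem hk F.qK) (inv_mem hk)) (inv_mem (pow_mem F.qK _))
      intro z hz
      obtain ⟨j, hj⟩ := e.surjective (S.mkCls hz)
      obtain ⟨i, hi⟩ : ∃ i, j = a * (i + 1) + b := ⟨(j - b) / a - 1, by field_simp; ring⟩
      have h3 : (⟨k, hk⟩ * ⟨F.q, F.qK⟩ * (⟨k, hk⟩ : S.K x)⁻¹ * ((⟨F.q, F.qK⟩ : S.K x) ^ a.val)⁻¹) •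
          S.mkCls hz = S.mkCls hz := by
        rw [← hj, mul_smul, mul_smul, mul_smul]
        have h4 : ((⟨F.q, F.qK⟩ : S.K x) ^ a.val)⁻¹ • e j = e (a * i + b) := by
          rw [inv_smul_eq_iff, hstep, ZMod.natCast_zmod_val, hi]
          congr 1
          ring
        rw [h4]
        have h5 : (⟨k, hk⟩ : S.K x)⁻¹ • e (a * i + b) = e i := by
          rw [inv_smul_eq_iff, hab]
        rw [h5, hes, hab, hi]
      exact congrArg Subtype.val h3
    exact mul_inv_eq_one.mp hk1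
  · intro u v u' v' hu hv hu' hv' huv huv'
    have h6 : ∀ a b c d : S.Cls x y, a ≠ b → c ≠ d → ∃ g : S.K x, g • a = c ∧ g • b = d :=
      fun a b c d hab hcd => (is_two_pretransitive_iff (G := S.K x) (α := S.Cls x y)).mp h hab hcd
    obtain ⟨g, hg⟩ := h6 (S.mkCls hu) (S.mkCls hv) (S.mkCls hu') (S.mkCls hv')
      (fun h => huv (congrArg Subtype.val h)) (fun h => huv' (congrArg Subtype.val h))
    exact ⟨g, g.2, congrArg Subtype.val hg.1, congrArg Subtype.val hg.2⟩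

end

end Cfsg.Agent.Lib.AtkSys
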