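import Cfsg.Agent.Lib.AtkSys3
import Cfsg.Agent.Lib.AtkRing

/-!
Class systems of degree `p ^ 2 + 1` whose kernels are doubly transitive on the classes
(helper23).
-/

set_option autoImplicit false

namespace Cfsg.Agent.Lib.AtkSys

open MulAction

section

variable {G Ω : Type*} [Group G] [MulAction G Ω] {p : ℕ}

/-- The kernel at `x` is doubly transitive on each class. -/
def Sys.TwoTr (S : Sys G Ω p) (x : Ω) : Prop :=
  ∀ y, y ≠ x → ∀ u v u' v', S.rel x y u → S.rel x y v → S.rel x y u' → S.rel x y v' →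
      u ≠ v → u' ≠ v' → ∃ k ∈ S.K x, k • u = u' ∧ k • v = v'

/-- The powers of the element `q` of a frame. -/
def Frame.z {S : Sys G Ω p} {x : Ω} (F : Frame S x) (j : ZMod p) : G := F.q ^ j.val

end

section

variable {G Ω : Type*} [Group G] [MulAction G Ω] {p : ℕ} [hp : Fact p.Prime]
  {S : Sys G Ω p} {x : Ω}

omit hp in
theorem Frame.z_P (F : Frame S x) (j : ZMod p) : F.z j ∈ F.P := pow_mem F.qP _

omit hp in
theorem Frame.z_K (F : Frame S x) (j : ZMod p) : F.z j ∈ S.K x := pow_mem F.qK _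

theorem Frame.z_nat (F : Frame S x) (n : ℕ) : F.z (n : ZMod p) = F.q ^ n := by
  unfold Frame.z
  rw [ZMod.val_natCast]
  have := pow_mod_orderOf F.q n
  rwa [F.orderOf_q] at this

theorem Frame.z_zero (F : Frame S x) : F.z (0 : ZMod p) = 1 := by
  unfold Frame.z
  rw [ZMod.val_zero, pow_zero]

theorem Frame.z_one (F : Frame S x) : F.z (1 : ZMod p) = F.q := by
  have := F.z_nat 1
  simpa using this

theorem Frame.z_add (F : Frame S x) (i j : ZMod p) : F.z (i + j) = F.z i * F.z j := by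
  have h1 : ((i.val + j.val : ℕ) : ZMod p) = i + j := by
    push_cast
    rw [ZMod.natCast_zmod_val, ZMod.natCast_zmod_val]
  rw [← h1, F.z_nat, pow_add]
  rfl

theorem Frame.z_neg (F : Frame S x) (i : ZMod p) : F.z (-i) = (F.z i)⁻¹ := by
  rw [eq_inv_iff_mul_eq_one, ← F.z_add, neg_add_cancel, F.z_zero]

theorem Frame.z_sub (F : Frame S x) (i j : ZMod p) : F.z (i - j) = (F.z j)⁻¹ * F.z i := by
  rw [← F.z_neg, ← F.z_add]
  congr 1
  ring

theorem Frame.z_inj (F : Frame S x) {y : Ω} (hy : y ≠ x) {i j : ZMod p}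
    (h : F.z i • y = F.z j • y) : i = j := by
  have h3 : ((F.z j)⁻¹ * F.z i) • y = y := by
    rw [mul_smul, h, inv_smul_smul]
  have h4 := F.reg hy (mul_mem (inv_mem (F.z_P _)) (F.z_P _)) h3
  rw [← F.z_sub] at h4
  have h6 := pow_injOn_Iio_orderOf (x := F.q)
        (by rw [F.orderOf_q]; exact ZMod.val_lt (i - j)) (by rw [F.orderOf_q]; exact hp.out.pos)
        (show F.q ^ (i - j).val = F.q ^ 0 by rw [pow_zero]; exact h4)
  have h7 : i - j = 0 := (ZMod.val_eq_zero _).mp h6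
  exact sub_eq_zero.mp h7

theorem Frame.cls_z (F : Frame S x) {y v : Ω} (h : S.rel x y v) : ∃ j : ZMod p, F.z j • y = v := by
  obtain ⟨i, hi⟩ := F.cls h
  exact ⟨(i : ZMod p), by rw [F.z_nat]; exact hi⟩

omit hp in
theorem Frame.rel_z (F : Frame S x) {y : Ω} (hy : y ≠ x) (j : ZMod p) : S.rel x y (F.z j • y) :=
  F.rel_q hy _

/-- `p`-th powers in the regular group lie in the kernel. -/
theorem Frame.pow_mem_K [Finite G] (F : Frame S x) {g : G} (hg : g ∈ F.P) :
    ∃ τ : ℕ, g ^ p = F.q ^ τ := by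
  have hz : F.P ⊓ S.K x = Subgroup.zpowers F.q := by
    ext a
    constructor
    · rintro ⟨h1, h2⟩
      obtain ⟨i, rfl⟩ := F.PK h1 h2
      exact pow_mem (Subgroup.mem_zpowers _) _
    · intro h
      have h1 : Subgroup.zpowers F.q ≤ F.P ⊓ S.K x := by
        rw [Subgroup.zpowers_le]
        exact Subgroup.mem_inf.mpr ⟨F.qP, F.qK⟩
      exact h1 h
  have hc : Nat.card ↥(F.P ⊓ S.K x) = p := by
    rw [hz, Nat.card_zpowers]
    exact F.orderOf_q
  have hnorm : ((F.P ⊓ S.K x).subgroupOf F.P).Normal := by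
    refine ⟨fun a ha b => ?_⟩
    have : b * a * b⁻¹ = a := by
      apply Subtype.ext
      show (b : G) * a * (b : G)⁻¹ = a
      rw [F.comm b b.2 a a.2, mul_inv_cancel_right]
    rw [this]; exact ha
  have hidx : ((F.P ⊓ S.K x).subgroupOf F.P).index = p := by
    have h1 := Subgroup.card_mul_index ((F.P ⊓ S.K x).subgroupOf F.P)
    have h3 : Nat.card ((F.P ⊓ S.K x).subgroupOf F.P) = Nat.card ↥(F.P ⊓ S.K x) := by
      rw [← Subgroup.card_map_of_injective F.P.subtype_injective,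
        Subgroup.map_subgroupOf_eq_of_le inf_le_left]
    have h4 := F.card
    have h5 : p * ((F.P ⊓ S.K x).subgroupOf F.P).index = p * p := by
      calc p * ((F.P ⊓ S.K x).subgroupOf F.P).index
          = Nat.card ↥(F.P ⊓ S.K x) * ((F.P ⊓ S.K x).subgroupOf F.P).index := by
            congr 1; exact hc.symm
        _ = Nat.card F.P := by rw [← h3]; exact h1
        _ = p * p := by rw [h4, sq]
    exact Nat.eq_of_mul_eq_mul_left hp.out.pos h5
  have h1 := Subgroup.pow_index_mem ((F.P ⊓ S.K x).subgroupOf F.P) (⟨g, hg⟩ : F.P)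
  have h2 : (⟨g, hg⟩ : F.P) ^ p ∈ (F.P ⊓ S.K x).subgroupOf F.P := by
    have h3 : (⟨g, hg⟩ : F.P) ^ ((F.P ⊓ S.K x).subgroupOf F.P).index = (⟨g, hg⟩ : F.P) ^ p := by
      congr 1
    rw [← h3]; exact h1
  rw [Subgroup.mem_subgroupOf] at h2
  have h3 := Subgroup.mem_inf.mp h2
  exact F.PK h3.1 h3.2

variable [Finite G] [Finite Ω] [FaithfulSMul G Ω]

omit hp [Finite Ω] [FaithfulSMul G Ω] in
theorem Frame.card_K (F : Frame S x) {y : Ω} (hy : y ≠ x) :
    Nat.card (S.K x) = p * Nat.card ↥(S.K x ⊓ stabilizer G y) := by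
  rw [card_eq_orbit_mul (S.K x) y]
  congr 1
  refine Eq.trans ?_ (S.card hy)
  congr 1
  ext z
  constructor
  · rintro ⟨⟨g, hg⟩, rfl⟩
    exact hg.2 y hy
  · intro hz
    have hz' : S.rel x y z := hz
    obtain ⟨i, hi⟩ := F.cls hz'
    exact ⟨⟨F.q ^ i, pow_mem F.qK i⟩, hi⟩

omit [Finite Ω] [FaithfulSMul G Ω] in
/-- Inclusion of point stabilisers in the kernel is equality. -/
theorem Frame.stab_symm (F : Frame S x) {y z : Ω} (hy : y ≠ x) (hz : z ≠ x)
    (h : ∀ k ∈ S.K x, k • y = y → k • z = z) : ∀ k ∈ S.K x, k • z = z → k • y = y := by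
  have h1 : S.K x ⊓ stabilizer G y = S.K x ⊓ stabilizer G z := by
    apply Subgroup.eq_of_le_of_card_ge
    · intro k hk
      have hk' := Subgroup.mem_inf.mp hk
      exact Subgroup.mem_inf.mpr ⟨hk'.1, h k hk'.1 hk'.2⟩
    · have h3 := F.card_K hy
      have h4 := F.card_K hz
      rw [h3] at h4
      exact (Nat.eq_of_mul_eq_mul_left hp.out.pos h4).ge
  intro k hk hkz
  have h3 : k ∈ S.K x ⊓ stabilizer G z := Subgroup.mem_inf.mpr ⟨hk, hkz⟩
  rw [← h1] at h3
  exact (Subgroup.mem_inf.mp h3).2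

omit [Finite G] [Finite Ω] [FaithfulSMul G Ω] in
/-- The stabiliser of a point in the kernel fixes no other point of the same class. -/
theorem Frame.not_fix (F : Frame S x) (hp3 : 3 ≤ p) (htw : S.TwoTr x) {v v' : Ω}
    (h : S.rel x v v') (hne : v ≠ v') (hfix : ∀ k ∈ S.K x, k • v = v → k • v' = v') : False := by
  classical
  -- a third point
  obtain ⟨j, hj⟩ := F.cls_z h
  obtain ⟨i, hi0, hij⟩ : ∃ a : ZMod p, a ≠ 0 ∧ a ≠ j := by
    have h3 : ({0, j} : Finset (ZMod p)).card < Fintype.card (ZMod p) := by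
      rw [ZMod.card]
      have := Finset.card_le_two (a := (0 : ZMod p)) (b := j)
      omega
    obtain ⟨a, ha⟩ := Finset.exists_mem_notMem_of_card_lt_card
      (s := {0, j}) (t := Finset.univ) (by rw [Finset.card_univ]; exact h3)
    refine ⟨a, ?_, ?_⟩
    · rintro rfl; exact ha.2 (by simp)
    · rintro rfl; exact ha.2 (by simp)
  have hv : v ≠ x := S.ne h
  have h1 : v ≠ F.z i • v := by
    intro h3
    have h4 : F.z 0 • v = F.z i • v := by rw [F.z_zero, one_smul]; exact h3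
    exact hi0 (F.z_inj hv h4).symm
  obtain ⟨k, hk, hkv, hkv'⟩ := htw v hv v v' v (F.z i • v) (S.refl hv) h (S.refl hv)
    (F.rel_z hv i) hne h1
  have h3 := hfix k hk hkv
  rw [hkv'] at h3
  rw [← hj] at h3
  exact hij (F.z_inj hv h3)

/-- The stabiliser of a point in the kernel fixes a point in each class. -/
theorem Frame.exists_fix (F : Frame S x) (h2 : TwoT G Ω) (hΩ : Nat.card Ω = p ^ 2 + 1)
    (hp3 : 3 ≤ p) (htw : S.TwoTr x) {y z : Ω} (hy : y ≠ x) (hz : z ≠ x) :
    ∃ v, S.rel x z v ∧ ∀ k ∈ S.K x, k • y = y → k • v = v := by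
  classical
  obtain ⟨g, hg, hgz⟩ := F.tr hy hz
  obtain ⟨e, he, -⟩ := F.exists_coord hy
  have he' : ∀ j, (e j).1 = F.z j • y := he
  have hgx : g • x = x := F.le hg
  -- the action on the class of `y`
  let σ : S.K x →* Equiv.Perm (ZMod p) :=
    (e.symm.permCongrHom.toMonoidHom).comp (MulAction.toPermHom (S.K x) (S.Cls x y))
  have hσ : ∀ (l : S.K x) (j : ZMod p), F.z (σ l j) • y = (l : G) • (F.z j • y) := by
    intro l j
    have h1 : σ l j = e.symm (l • e j) := rfl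
    rw [h1, ← he', Equiv.apply_symm_apply, Sys.cls_smul_val, he']
  let α : S.K x → S.K x := fun l => ⟨g⁻¹ * l * g, by
    have h1 := S.K_conj' (x := x) (g := g⁻¹) (by rw [inv_smul_eq_iff, hgx]) l.2
    rwa [inv_inv] at h1⟩
  have hα : ∀ (l : S.K x) (j : ZMod p), F.z (σ (α l) j) • z = (l : G) • (F.z j • z) := by
    intro l j
    have h1 := hσ (α l) j
    have h3 : ((α l : S.K x) : G) = g⁻¹ * l * g := rfl
    rw [h3, mul_smul, mul_smul, eq_inv_smul_iff, ← mul_smul g, ← mul_smul g,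
      F.comm g hg _ (F.z_P _), F.comm g hg _ (F.z_P _), mul_smul, mul_smul, hgz] at h1
    exact h1
  let f : ZMod p → ℤ := fun m =>
    if ∃ l ∈ S.K x, l • y = y ∧ l • z = F.z m • z then 1 else 0
  have hf1 : ∀ m, f m = 1 ↔ ∃ l ∈ S.K x, l • y = y ∧ l • z = F.z m • z := by
    intro m
    show (if _ then (1 : ℤ) else 0) = 1 ↔ _
    by_cases h : ∃ l ∈ S.K x, l • y = y ∧ l • z = F.z m • z
    · rw [if_pos h]; exact ⟨fun _ => h, fun _ => rfl⟩
    · rw [if_neg h]
      constructor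
      · intro h3; exact absurd h3 (by norm_num)
      · intro h3; exact absurd h3 h
  have hf : ∀ m, f m = 0 ∨ f m = 1 := by
    intro m
    show (if _ then (1 : ℤ) else 0) = 0 ∨ (if _ then (1 : ℤ) else 0) = 1
    split_ifs <;> simp
  have hinv1 : ∀ (l : S.K x) u w, f (w - u) = 1 → f (σ (α l) w - σ l u) = 1 := by
    intro l u w h
    rw [hf1] at h ⊢
    obtain ⟨l₁, hl₁, hy₁, hz₁⟩ := h
    refine ⟨(F.z (σ l u))⁻¹ * l * F.z u * l₁,
      mul_mem (mul_mem (mul_mem (inv_mem (F.z_K _)) l.2) (F.z_K _)) hl₁, ?_, ?_⟩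
    · rw [mul_smul, mul_smul, mul_smul, hy₁, inv_smul_eq_iff, hσ]
    · rw [mul_smul, mul_smul, mul_smul, hz₁, ← mul_smul (F.z u), ← F.z_add,
        show u + (w - u) = w by ring, ← hα, F.z_sub, mul_smul]
  have hinv : ∀ (l : S.K x) u w, f (σ (α l) w - σ l u) = f (w - u) := by
    intro l u w
    have h1 := hinv1 l⁻¹ (σ l u) (σ (α l) w)
    have h3 : α l⁻¹ = (α l)⁻¹ := by
      apply Subtype.ext
      show g⁻¹ * (l : G)⁻¹ * g = (g⁻¹ * l * g)⁻¹
      group
    have h4 : ∀ (π : Equiv.Perm (ZMod p)) w, π⁻¹ (π w) = w := by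
      intro π w
      rw [← Equiv.Perm.mul_apply, inv_mul_cancel]; rfl
    rw [h3, map_inv, map_inv, h4, h4] at h1
    rcases hf (w - u) with h | h
    · rcases hf (σ (α l) w - σ l u) with h' | h'
      · rw [h, h']
      · exact absurd (h1 h') (by rw [h]; norm_num)
    · rw [h, hinv1 l u w h]
  obtain ⟨τ, hτ⟩ := F.pow_mem_K hg
  have hαp : ∀ l, α^[p] l =
      ((⟨F.q, F.qK⟩ : S.K x) ^ τ)⁻¹ * l * (⟨F.q, F.qK⟩ : S.K x) ^ τ := by
    intro l
    have h1 : ∀ (n : ℕ) (l : S.K x), ((α^[n] l : S.K x) : G) = (g ^ n)⁻¹ * l * g ^ n := by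
      intro n
      induction n with
      | zero => intro l; simp
      | succ n ih =>
        intro l
        rw [Function.iterate_succ', Function.comp_apply]
        show g⁻¹ * ((α^[n] l : S.K x) : G) * g = _
        rw [ih, pow_succ]
        group
    apply Subtype.ext
    rw [h1, hτ]
    rfl
  have hσq : ∀ j, σ ⟨F.q, F.qK⟩ j = j + 1 := by
    intro j
    have h1 := hσ ⟨F.q, F.qK⟩ j
    apply F.z_inj hy
    rw [h1]
    show F.q • F.z j • y = _
    rw [← mul_smul, ← F.z_one, ← F.z_add, add_comm]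
  have h2t : ∀ u v u' v' : ZMod p, u ≠ v → u' ≠ v' → ∃ l, σ l u = u' ∧ σ l v = v' := by
    intro u v u' v' huv huv'
    obtain ⟨k, hk, h1, h3⟩ := htw y hy (F.z u • y) (F.z v • y) (F.z u' • y) (F.z v' • y)
      (F.rel_z hy _) (F.rel_z hy _) (F.rel_z hy _) (F.rel_z hy _)
      (fun h => huv (F.z_inj hy h)) (fun h => huv' (F.z_inj hy h))
    refine ⟨⟨k, hk⟩, F.z_inj hy ?_, F.z_inj hy ?_⟩
    · rw [hσ]; exact h1
    · rw [hσ]; exact h3
  -- the orbit of `z` under the stabiliser of `y`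
  let M : Finset (ZMod p) := Finset.univ.filter fun m => f m = 1
  have hkM : ∑ m, f m = M.card := by
    rw [Finset.card_filter]
    push_cast
    apply Finset.sum_congr rfl
    intro m _
    rcases hf m with h | h <;> rw [h] <;> simp
  have h0M : (0 : ZMod p) ∈ M := by
    rw [Finset.mem_filter]
    refine ⟨Finset.mem_univ _, (hf1 0).mpr ⟨1, one_mem _, one_smul _ _, ?_⟩⟩
    rw [F.z_zero]
  have hk1 : 1 ≤ M.card := Finset.card_pos.mpr ⟨0, h0M⟩
  have hk2 : M.card ≤ p - 1 := by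
    by_contra hcon
    push Not at hcon
    have h1 : M = Finset.univ := by
      apply Finset.eq_univ_of_card
      have h3 := Finset.card_le_univ M
      rw [ZMod.card] at h3 ⊢
      omega
    apply S.not_dvd h2 hΩ hy.symm
    have h3 : Nat.card ↥(S.K x ⊓ stabilizer G y) ∣ Nat.card ↥(stabilizer G x ⊓ stabilizer G y) :=
      Subgroup.card_dvd_of_le (inf_le_inf_right _ (S.K_le x))
    refine Dvd.dvd.trans ?_ h3
    have h4 := card_eq_orbit_mul (S.K x ⊓ stabilizer G y) z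
    have h5 : (orbit ↥(S.K x ⊓ stabilizer G y) z).ncard = p := by
      refine Eq.trans ?_ (S.card hz)
      congr 1
      ext v
      constructor
      · rintro ⟨⟨a, ha⟩, rfl⟩
        exact (Subgroup.mem_inf.mp ha).1.2 z hz
      · intro hv
        have hv' : S.rel x z v := hv
        obtain ⟨j, rfl⟩ := F.cls_z hv'
        have hj : j ∈ M := by rw [h1]; exact Finset.mem_univ _
        obtain ⟨l, hl, hly, hlz⟩ := (hf1 j).mp (Finset.mem_filter.mp hj).2
        exact ⟨⟨l, Subgroup.mem_inf.mpr ⟨hl, hly⟩⟩, hlz⟩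
    rw [h4]
    exact ⟨_, congrArg (· * _) h5⟩
  have hkey := Cfsg.Agent.Lib.AtkRing.abstract_key hp3 σ α ⟨F.q, F.qK⟩ hσq f hf hinv τ hαp h2t
    M.card hkM hk1 hk2
  rcases hkey with h | h
  · -- the stabiliser fixes `z`
    refine ⟨z, S.refl hz, ?_⟩
    intro k hk hky
    obtain ⟨j, hj⟩ := F.cls_z (hk.2 z hz)
    have hjM : j ∈ M := by
      rw [Finset.mem_filter]
      exact ⟨Finset.mem_univ _, (hf1 j).mpr ⟨k, hk, hky, hj.symm⟩⟩
    obtain ⟨a, ha⟩ := Finset.card_eq_one.mp h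
    rw [ha, Finset.mem_singleton] at h0M hjM
    rw [← hj, hjM, ← h0M, F.z_zero, one_smul]
  · -- there is exactly one point outside the orbit
    obtain ⟨m, hm⟩ : ∃ m, m ∉ M := by
      by_contra hcon
      push Not at hcon
      have h1 : M = Finset.univ := Finset.eq_univ_of_forall hcon
      rw [h1, Finset.card_univ, ZMod.card] at h
      omega
    have hmu : ∀ m', m' ∉ M → m' = m := by
      intro m' hm'
      by_contra hne
      have h1 : (Mᶜ).card = 1 := by
        rw [Finset.card_compl, ZMod.card, h]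
        omega
      obtain ⟨a, ha⟩ := Finset.card_eq_one.mp h1
      have h3 : m ∈ Mᶜ := Finset.mem_compl.mpr hm
      have h4 : m' ∈ Mᶜ := Finset.mem_compl.mpr hm'
      rw [ha, Finset.mem_singleton] at h3 h4
      exact hne (h4.trans h3.symm)
    refine ⟨F.z m • z, F.rel_z hz m, ?_⟩
    intro k hk hky
    obtain ⟨j, hj⟩ := F.cls_z (S.rel_K hk (F.rel_z hz m))
    by_cases hjM : j ∈ M
    · exfalso
      obtain ⟨l, hl, hly, hlz⟩ := (hf1 j).mp (Finset.mem_filter.mp hjM).2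
      apply hm
      rw [Finset.mem_filter]
      refine ⟨Finset.mem_univ _, (hf1 m).mpr ⟨k⁻¹ * l, mul_mem (inv_mem hk) hl, ?_, ?_⟩⟩
      · rw [mul_smul, hly, inv_smul_eq_iff, hky]
      · rw [mul_smul, hlz, hj, inv_smul_smul]
    · rw [← hj, hmu j hjM]

end

end Cfsg.Agent.Lib.AtkSys
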