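import Cfsg.Agent.Lib.AtkSys4

/-!
Class systems of degree `p ^ 2 + 1` with affine kernels: the centralisers and characters of the
semiregular normal subgroups (helper23).
-/

set_option autoImplicit false

namespace Cfsg.Agent.Lib.AtkSys

open MulAction

section

variable {G Ω : Type*} [Group G] [MulAction G Ω] {p : ℕ}

/-- The elements of the stabiliser of `x` centralising the elements of order `p` of the kernel. -/
def Sys.C (S : Sys G Ω p) (x : Ω) : Subgroup G where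
  carrier := {c | c • x = x ∧ ∀ k ∈ S.K x, k ^ p = 1 → c * k = k * c}
  mul_mem' := by
    rintro a b ⟨ha, ha'⟩ ⟨hb, hb'⟩
    refine ⟨by rw [mul_smul, hb, ha], fun k hk hkp => ?_⟩
    rw [mul_assoc, hb' k hk hkp, ← mul_assoc, ha' k hk hkp, mul_assoc]
  one_mem' := ⟨one_smul _ _, fun k _ _ => by rw [one_mul, mul_one]⟩
  inv_mem' := by
    rintro a ⟨ha, ha'⟩
    refine ⟨by rw [inv_smul_eq_iff, ha], fun k hk hkp => ?_⟩
    rw [inv_mul_eq_iff_eq_mul, ← mul_assoc, ha' k hk hkp, mul_inv_cancel_right]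

theorem Sys.C_conj (S : Sys G Ω p) {x : Ω} (g : G) {c : G} (hc : c ∈ S.C x) :
    g * c * g⁻¹ ∈ S.C (g • x) := by
  refine ⟨by rw [mul_smul, mul_smul, inv_smul_smul, hc.1], fun k hk hkp => ?_⟩
  have h1 : g⁻¹ * k * g ∈ S.K x := by
    have := S.K_conj g⁻¹ hk
    rwa [inv_inv, inv_smul_smul] at this
  have h2 : (g⁻¹ * k * g) ^ p = 1 := by
    have h3 := conj_pow (i := p) (a := g⁻¹) (b := k)
    rw [inv_inv, hkp, mul_one, inv_mul_cancel] at h3
    exact h3
  have h3 := hc.2 _ h1 h2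
  calc g * c * g⁻¹ * k = g * (c * (g⁻¹ * k * g)) * g⁻¹ := by group
    _ = g * ((g⁻¹ * k * g) * c) * g⁻¹ := by rw [h3]
    _ = k * (g * c * g⁻¹) := by group

end

section

variable {G Ω : Type*} [Group G] [MulAction G Ω] {p : ℕ} [hp : Fact p.Prime]
  [Finite G] [Finite Ω] [FaithfulSMul G Ω] {S : Sys G Ω p} {x : Ω}

/-- The affine case: elements of order `p` of the kernel are powers of `q`. -/
theorem Frame.eq_pow_of_pow (F : Frame S x) (h2 : TwoT G Ω) (hΩ : Nat.card Ω = p ^ 2 + 1)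
    (hA : ∀ k ∈ S.K x, ∃ i : ℕ, k * F.q * k⁻¹ = F.q ^ i) {k : G} (hk : k ∈ S.K x)
    (hkp : k ^ p = 1) : ∃ j : ZMod p, k = F.z j := by
  classical
  obtain ⟨y, hy⟩ : ∃ y : Ω, y ≠ x := by
    by_contra hcon
    push Not at hcon
    have h1 := ncard_ne hΩ x
    have h3 : ({y | y ≠ x} : Set Ω) = ∅ := by
      ext y
      simp [hcon y]
    rw [h3, Set.ncard_empty] at h1
    have := hp.out.pos
    have h4 : 0 < p ^ 2 := by positivity
    omega
  let Q : Subgroup (S.K x) := Subgroup.zpowers ⟨F.q, F.qK⟩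
  have hQn : Q.Normal := by
    refine ⟨fun a ha b => ?_⟩
    obtain ⟨n, rfl⟩ := Subgroup.mem_zpowers_iff.mp ha
    obtain ⟨i, hi⟩ := hA b b.2
    have h1 : b * (⟨F.q, F.qK⟩ : S.K x) * b⁻¹ = (⟨F.q, F.qK⟩ : S.K x) ^ i := Subtype.ext hi
    rw [← conj_zpow, h1]
    exact zpow_mem (pow_mem (Subgroup.mem_zpowers _) _) _
  have hQc : Nat.card Q = p :=
    (Nat.card_zpowers _).trans ((Subgroup.orderOf_mk F.q F.qK).trans F.orderOf_q)
  have hQi : ¬ p ∣ Q.index := by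
    have h1 := Q.card_mul_index
    have h3 : p * Q.index = p * Nat.card ↥(S.K x ⊓ stabilizer G y) := by
      rw [← F.card_K hy, ← h1]
      congr 1
      exact hQc.symm
    have h4 := Nat.eq_of_mul_eq_mul_left hp.out.pos h3
    rw [h4]
    intro h5
    apply S.not_dvd h2 hΩ hy.symm
    exact h5.trans (Subgroup.card_dvd_of_le (inf_le_inf_right _ (S.K_le x)))
  have hQp : IsPGroup p Q := IsPGroup.of_card (n := 1) (by rw [pow_one]; exact hQc)
  let P0 : Sylow p (S.K x) := hQp.toSylow hQi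
  have hP0 : (P0 : Subgroup (S.K x)).Normal := hQn
  have hkP : IsPGroup p (Subgroup.zpowers (⟨k, hk⟩ : S.K x)) := by
    rintro ⟨g, hg⟩
    obtain ⟨n, rfl⟩ := Subgroup.mem_zpowers_iff.mp hg
    refine ⟨1, Subtype.ext ?_⟩
    show ((⟨k, hk⟩ : S.K x) ^ n) ^ p ^ 1 = 1
    have h1 : (⟨k, hk⟩ : S.K x) ^ p = 1 := Subtype.ext hkp
    rw [pow_one, ← zpow_natCast, ← zpow_mul, mul_comm, zpow_mul, zpow_natCast, h1, one_zpow]
  obtain ⟨P1, hP1⟩ := hkP.exists_le_sylow
  have : Unique (Sylow p (S.K x)) := Sylow.unique_of_normal P0 hP0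
  have h10 : P1 = P0 := Subsingleton.elim _ _
  have h1 : (⟨k, hk⟩ : S.K x) ∈ Q := by
    have h3 := hP1 (Subgroup.mem_zpowers _)
    rw [h10] at h3
    exact h3
  have h3 : (⟨k, hk⟩ : S.K x) ∈ Submonoid.powers (⟨F.q, F.qK⟩ : S.K x) := by
    rw [mem_powers_iff_mem_zpowers]; exact h1
  obtain ⟨n, hn⟩ := h3
  refine ⟨(n : ZMod p), ?_⟩
  rw [F.z_nat]
  exact (congrArg Subtype.val hn).symm

omit hp [Finite G] [Finite Ω] [FaithfulSMul G Ω] in
theorem Frame.z_pow (F : Frame S x) (j : ZMod p) : F.z j ^ p = 1 := by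
  unfold Frame.z
  rw [← pow_mul, mul_comm, pow_mul, F.qp, one_pow]

omit [Finite G] [Finite Ω] [FaithfulSMul G Ω] in
theorem Frame.z_injective (F : Frame S x) {i j : ZMod p} (h : F.z i = F.z j) : i = j := by
  have h4 : F.z (i - j) = 1 := by rw [F.z_sub, h, inv_mul_cancel]
  have h6 := pow_injOn_Iio_orderOf (x := F.q)
        (by rw [F.orderOf_q]; exact ZMod.val_lt (i - j)) (by rw [F.orderOf_q]; exact hp.out.pos)
        (show F.q ^ (i - j).val = F.q ^ 0 by rw [pow_zero]; exact h4)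
  have h7 : i - j = 0 := (ZMod.val_eq_zero _).mp h6
  exact sub_eq_zero.mp h7

theorem Frame.mem_C_iff (F : Frame S x) (h2 : TwoT G Ω) (hΩ : Nat.card Ω = p ^ 2 + 1)
    (hA : ∀ k ∈ S.K x, ∃ i : ℕ, k * F.q * k⁻¹ = F.q ^ i) {c : G} :
    c ∈ S.C x ↔ c • x = x ∧ c * F.q = F.q * c := by
  constructor
  · rintro ⟨h1, h3⟩
    exact ⟨h1, h3 _ F.qK F.qp⟩
  · rintro ⟨h1, h3⟩
    refine ⟨h1, fun k hk hkp => ?_⟩
    obtain ⟨j, rfl⟩ := F.eq_pow_of_pow h2 hΩ hA hk hkp
    unfold Frame.z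
    exact (Commute.pow_right h3 _)

/-- The stabiliser of `x` normalises the group generated by `q`. -/
theorem Frame.exists_chi (F : Frame S x) (h2 : TwoT G Ω) (hΩ : Nat.card Ω = p ^ 2 + 1)
    (hA : ∀ k ∈ S.K x, ∃ i : ℕ, k * F.q * k⁻¹ = F.q ^ i) {g : G} (hg : g • x = x) :
    ∃ j : ZMod p, g * F.q * g⁻¹ = F.z j := by
  apply F.eq_pow_of_pow h2 hΩ hA (S.K_conj' hg F.qK)
  rw [conj_pow, F.qp, mul_one, mul_inv_cancel]

/-- The action of the stabiliser of `x` on the group of order `p`. -/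
noncomputable def Frame.chi (F : Frame S x) (h2 : TwoT G Ω) (hΩ : Nat.card Ω = p ^ 2 + 1)
    (hA : ∀ k ∈ S.K x, ∃ i : ℕ, k * F.q * k⁻¹ = F.q ^ i) : stabilizer G x →* ZMod p where
  toFun g := (F.exists_chi h2 hΩ hA g.2).choose
  map_one' := by
    apply F.z_injective
    rw [← (F.exists_chi h2 hΩ hA (1 : stabilizer G x).2).choose_spec, F.z_one]
    simp
  map_mul' := by
    intro g h
    apply F.z_injective
    have h1 := (F.exists_chi h2 hΩ hA g.2).choose_spec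
    have h3 := (F.exists_chi h2 hΩ hA h.2).choose_spec
    have h4 := (F.exists_chi h2 hΩ hA (g * h).2).choose_spec
    rw [← h4]
    set a := (F.exists_chi h2 hΩ hA g.2).choose
    set b := (F.exists_chi h2 hΩ hA h.2).choose
    have h5 : ∀ n : ℕ, (g : G) * F.q ^ n * (g : G)⁻¹ = F.z (a * n) := by
      intro n
      rw [← conj_pow, h1]
      induction n with
      | zero => simp [F.z_zero]
      | succ n ih => rw [pow_succ, ih, ← F.z_add]; push_cast; ring_nf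
    have h6 : ((g * h : stabilizer G x) : G) = g * h := rfl
    rw [h6, mul_inv_rev]
    have h7 : (g : G) * h * F.q * ((h : G)⁻¹ * (g : G)⁻¹) = g * (h * F.q * (h : G)⁻¹) * (g : G)⁻¹ := by
      group
    rw [h7, h3]
    have h8 := h5 b.val
    rw [ZMod.natCast_zmod_val] at h8
    exact h8

theorem Frame.chi_spec (F : Frame S x) (h2 : TwoT G Ω) (hΩ : Nat.card Ω = p ^ 2 + 1)
    (hA : ∀ k ∈ S.K x, ∃ i : ℕ, k * F.q * k⁻¹ = F.q ^ i) (g : stabilizer G x) :
    (g : G) * F.q * (g : G)⁻¹ = F.z (F.chi h2 hΩ hA g) :=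
  (F.exists_chi h2 hΩ hA g.2).choose_spec

theorem Frame.chi_eq_one_iff (F : Frame S x) (h2 : TwoT G Ω) (hΩ : Nat.card Ω = p ^ 2 + 1)
    (hA : ∀ k ∈ S.K x, ∃ i : ℕ, k * F.q * k⁻¹ = F.q ^ i) (g : stabilizer G x) :
    F.chi h2 hΩ hA g = 1 ↔ (g : G) ∈ S.C x := by
  rw [F.mem_C_iff h2 hΩ hA]
  constructor
  · intro h
    refine ⟨g.2, ?_⟩
    have h1 := F.chi_spec h2 hΩ hA g
    rw [h, F.z_one] at h1
    exact mul_inv_eq_iff_eq_mul.mp h1
  · rintro ⟨_, h⟩
    apply F.z_injective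
    rw [← F.chi_spec h2 hΩ hA g, F.z_one, h, mul_inv_cancel_right]

omit [Finite G] [Finite Ω] [FaithfulSMul G Ω] in
/-- An element of the centraliser fixing a point fixes its class. -/
theorem Frame.fix_of_C (F : Frame S x) {c : G} (hc : c ∈ S.C x) {y z : Ω} (h : S.rel x y z)
    (hcy : c • y = y) : c • z = z := by
  obtain ⟨j, rfl⟩ := F.cls_z h
  rw [← mul_smul, hc.2 _ (F.z_K j) (F.z_pow j), mul_smul, hcy]

/-- The centraliser meets the kernel in the group generated by `q`. -/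
theorem Frame.C_inf_K (F : Frame S x) (h2 : TwoT G Ω) (hΩ : Nat.card Ω = p ^ 2 + 1) {c : G}
    (hc : c ∈ S.C x) (hcK : c ∈ S.K x) {y : Ω} (hy : y ≠ x) : ∃ j : ZMod p, c = F.z j := by
  obtain ⟨j, hj⟩ := F.cls_z (hcK.2 y hy)
  refine ⟨j, ?_⟩
  have h1 : (F.z j)⁻¹ * c = 1 := by
    apply F.eq_one_of_fix h2 hΩ hy (mul_mem (inv_mem (F.z_K j)) hcK)
    intro z hz
    obtain ⟨i, rfl⟩ := F.cls_z hz
    rw [← mul_smul, mul_assoc, hc.2 _ (F.z_K i) (F.z_pow i), mul_smul, mul_smul, ← hj,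
      ← mul_smul, ← mul_smul, mul_assoc, F.comm _ (F.z_P i) _ (F.z_P j), inv_mul_cancel_left]
  exact (inv_mul_eq_one.mp h1).symm

omit [Finite Ω] [FaithfulSMul G Ω] in
/-- A subgroup containing `q` and an element of the regular group outside the kernel contains the
regular group. -/
theorem Frame.P_le (F : Frame S x) (A : Subgroup G) (hq : F.q ∈ A) {g : G} (hg : g ∈ F.P)
    (hgA : g ∈ A) (hgK : g ∉ S.K x) : F.P ≤ A := by
  have h1 : F.P ⊓ A = F.P := by
    apply Subgroup.eq_of_le_of_card_ge inf_le_left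
    have hPp : IsPGroup p F.P := IsPGroup.of_card F.card
    obtain ⟨k, hk⟩ := IsPGroup.iff_card.mp (hPp.to_le (inf_le_left : F.P ⊓ A ≤ F.P))
    have h3 : Subgroup.zpowers F.q < F.P ⊓ A := by
      refine lt_of_le_of_ne ?_ ?_
      · rw [Subgroup.zpowers_le]; exact Subgroup.mem_inf.mpr ⟨F.qP, hq⟩
      · intro h
        have h4 : g ∈ Subgroup.zpowers F.q := by rw [h]; exact Subgroup.mem_inf.mpr ⟨hg, hgA⟩
        obtain ⟨n, rfl⟩ := Subgroup.mem_zpowers_iff.mp h4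
        exact hgK (zpow_mem F.qK n)
    have h4 : Nat.card (Subgroup.zpowers F.q) = p ^ 1 := by
      rw [pow_one, Nat.card_zpowers]; exact F.orderOf_q
    have h5 : Nat.card (Subgroup.zpowers F.q) < Nat.card ↥(F.P ⊓ A) := by
      by_contra h
      push Not at h
      exact h3.ne (Subgroup.eq_of_le_of_card_ge h3.le h)
    rw [h4, hk] at h5
    have h6 := (Nat.pow_lt_pow_iff_right hp.out.one_lt).mp h5
    rw [hk]
    have h7 : Nat.card F.P = p ^ 2 := F.card
    rw [h7]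
    exact Nat.pow_le_pow_right hp.out.pos (by omega)
  intro a ha
  rw [← h1] at ha
  exact (Subgroup.mem_inf.mp ha).2

end

end Cfsg.Agent.Lib.AtkSys
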