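import Cfsg.Agent.Lib.AtkSys6

/-!
Class systems of degree `p ^ 2 + 1` with affine kernels: action of the centraliser on the classes
(helper23).
-/

set_option autoImplicit false

namespace Cfsg.Agent.Lib.AtkSys

open MulAction

section

variable {G Ω : Type*} [Group G] [MulAction G Ω] {p : ℕ}

/-- The classes at `x`. -/
def Sys.setoid (S : Sys G Ω p) (x : Ω) : Setoid {y : Ω // y ≠ x} where
  r a b := S.rel x a b
  iseqv := ⟨fun a => S.refl a.2, fun h => S.symm h, fun h h' => S.trans h h'⟩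

/-- The set of classes at `x`. -/
def Sys.Qt (S : Sys G Ω p) (x : Ω) := Quotient (S.setoid x)

/-- The class of a point. -/
def Sys.qt (S : Sys G Ω p) {x y : Ω} (hy : y ≠ x) : S.Qt x := Quotient.mk (S.setoid x) ⟨y, hy⟩

theorem Sys.qt_eq (S : Sys G Ω p) {x y z : Ω} (hy : y ≠ x) (hz : z ≠ x) :
    S.qt hy = S.qt hz ↔ S.rel x y z := by
  constructor
  · intro h; exact Quotient.exact h
  · intro h; exact Quotient.sound h

theorem Sys.exists_qt (S : Sys G Ω p) {x : Ω} (c : S.Qt x) : ∃ y, ∃ hy : y ≠ x, S.qt hy = c := by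
  obtain ⟨⟨y, hy⟩, rfl⟩ := Quotient.exists_rep c
  exact ⟨y, hy, rfl⟩

theorem smul_ne_of_fix {x y : Ω} {c : G} (hc : c • x = x) (hy : y ≠ x) : c • y ≠ x := by
  intro h
  exact hy (MulAction.injective c (h.trans hc.symm))

instance (S : Sys G Ω p) (x : Ω) : MulAction (S.C x) (S.Qt x) where
  smul c := Quotient.map (fun y => ⟨(c : G) • y.1, smul_ne_of_fix c.2.1 y.2⟩) (by
    intro a b h
    have h1 : S.rel x a b := h
    have h2 := S.smul (c : G) h1
    rw [c.2.1] at h2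
    exact h2)
  one_smul c := by
    obtain ⟨⟨y, hy⟩, rfl⟩ := Quotient.exists_rep c
    apply Quotient.sound
    show S.rel x ((1 : G) • y) y
    rw [one_smul]
    exact S.refl hy
  mul_smul a b c := by
    obtain ⟨⟨y, hy⟩, rfl⟩ := Quotient.exists_rep c
    apply Quotient.sound
    show S.rel x (((a : G) * b) • y) (a • (b : G) • y)
    rw [mul_smul]
    exact S.refl (smul_ne_of_fix a.2.1 (smul_ne_of_fix b.2.1 hy))

theorem Sys.smul_qt (S : Sys G Ω p) {x y : Ω} (hy : y ≠ x) (c : S.C x) :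
    c • S.qt hy = S.qt (smul_ne_of_fix c.2.1 hy) := rfl

instance [Finite Ω] (S : Sys G Ω p) (x : Ω) : Finite (S.Qt x) :=
  inferInstanceAs (Finite (Quotient (S.setoid x)))

end

section

variable {G Ω : Type*} [Group G] [MulAction G Ω] {p : ℕ} [hp : Fact p.Prime]
  [Finite G] [Finite Ω] [FaithfulSMul G Ω] {S : Sys G Ω p} {x : Ω}

omit [Finite G] [FaithfulSMul G Ω] in
theorem Frame.card_Qt (F : Frame S x) (hΩ : Nat.card Ω = p ^ 2 + 1) : Nat.card (S.Qt x) = p := by
  classical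
  choose r hr hr' using fun c : S.Qt x => S.exists_qt c
  let φ : S.Qt x × ZMod p → {v : Ω | v ≠ x} := fun t =>
    ⟨F.z t.2 • r t.1, S.ne' (F.rel_z (hr t.1) t.2)⟩
  have hφ : Function.Bijective φ := by
    constructor
    · rintro ⟨c, i⟩ ⟨d, j⟩ h
      have h1 : F.z i • r c = F.z j • r d := congrArg Subtype.val h
      have h3 : S.rel x (r c) (r d) := by
        have h5 := F.rel_z (hr c) i
        rw [h1] at h5
        exact S.trans h5 (S.symm (F.rel_z (hr d) j))
      have h4 : c = d := by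
        rw [← hr' c, ← hr' d, S.qt_eq]
        exact h3
      subst h4
      rw [F.z_inj (hr c) h1]
    · rintro ⟨v, hv⟩
      have hv' : v ≠ x := hv
      have h1 : S.rel x (r (S.qt hv')) v := by
        rw [← S.qt_eq (hr _) hv', hr']
      obtain ⟨j, hj⟩ := F.cls_z h1
      exact ⟨⟨S.qt hv', j⟩, Subtype.ext hj⟩
  have h1 := Nat.card_congr (Equiv.ofBijective φ hφ)
  rw [Nat.card_prod, Nat.card_zmod] at h1
  have h3 : Nat.card {v : Ω | v ≠ x} = p ^ 2 := by
    rw [Nat.card_coe_set_eq]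
    exact ncard_ne hΩ x
  rw [h3, sq] at h1
  exact Nat.eq_of_mul_eq_mul_right hp.out.pos h1

theorem Frame.P_le_C (F : Frame S x) (h2 : TwoT G Ω) (hΩ : Nat.card Ω = p ^ 2 + 1)
    (hA : ∀ k ∈ S.K x, ∃ i : ℕ, k * F.q * k⁻¹ = F.q ^ i) : F.P ≤ S.C x := by
  intro g hg
  rw [F.mem_C_iff h2 hΩ hA]
  exact ⟨F.le hg, F.comm g hg _ F.qP⟩

/-- Either the regular group is normalised by the centraliser or the centraliser is doubly
transitive on the classes. -/
theorem Frame.dichotomy_C (F : Frame S x) (h2 : TwoT G Ω) (hΩ : Nat.card Ω = p ^ 2 + 1)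
    (hA : ∀ k ∈ S.K x, ∃ i : ℕ, k * F.q * k⁻¹ = F.q ^ i) :
    (∀ c ∈ S.C x, ∀ g ∈ F.P, c * g * c⁻¹ ∈ F.P) ∨
    (∀ y z v, y ≠ x → z ≠ x → v ≠ x → ¬ S.rel x y z → ¬ S.rel x y v →
      ∃ c ∈ S.C x, S.rel x y (c • y) ∧ S.rel x v (c • z)) := by
  classical
  have hPC := F.P_le_C h2 hΩ hA
  have hPc : Nat.card (F.P.subgroupOf (S.C x)) = p ^ 2 := by
    rw [← Subgroup.card_map_of_injective (S.C x).subtype_injective,
        Subgroup.map_subgroupOf_eq_of_le hPC]
    exact F.card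
  obtain ⟨y₀, hy₀⟩ : ∃ y : Ω, y ≠ x := by
    by_contra hcon
    push Not at hcon
    have h1 := ncard_ne hΩ x
    have h3 : ({y | y ≠ x} : Set Ω) = ∅ := by
      ext y
      simp [hcon y]
    rw [h3, Set.ncard_empty] at h1
    have := hp.out.pos
    have h4 : 0 < p ^ 2 := by positivity
    omega
  have hidx : ¬ p ∣ (F.P.subgroupOf (S.C x)).index := by
    intro hdvd
    have h1 := Subgroup.card_mul_index (F.P.subgroupOf (S.C x))
    have h3 : Nat.card (S.C x) ∣ Nat.card (stabilizer G x) :=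
      Subgroup.card_dvd_of_le (fun c hc => hc.1)
    rw [← h1, card_stab h2 hΩ hy₀] at h3
    have h4 : p ^ 2 * (F.P.subgroupOf (S.C x)).index ∣
        p ^ 2 * Nat.card ↥(stabilizer G x ⊓ stabilizer G y₀) := by
      refine Dvd.dvd.trans ?_ h3
      exact ⟨1, by rw [mul_one]; exact congrArg (· * _) hPc⟩
    have h5 := Nat.dvd_of_mul_dvd_mul_left (pow_pos hp.out.pos 2) h4
    exact S.not_dvd h2 hΩ hy₀.symm (hdvd.trans h5)
  have hPp : IsPGroup p (F.P.subgroupOf (S.C x)) := IsPGroup.of_card hPc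
  let P0 : Sylow p (S.C x) := hPp.toSylow hidx
  have hpt : IsPretransitive (S.C x) (S.Qt x) := by
    refine ⟨fun c d => ?_⟩
    obtain ⟨y, hy, rfl⟩ := S.exists_qt c
    obtain ⟨z, hz, rfl⟩ := S.exists_qt d
    obtain ⟨g, hg, hgz⟩ := F.tr hy hz
    refine ⟨⟨g, hPC hg⟩, ?_⟩
    rw [S.smul_qt, S.qt_eq]
    show S.rel x (g • y) z
    rw [hgz]
    exact S.refl hz
  obtain ⟨σ, hσ, e, he⟩ := Cfsg.Agent.Lib.PrimeDegree.exists_coord (F.card_Qt hΩ) P0
  have hσP : (σ : G) ∈ F.P := hσ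
  rcases Cfsg.Agent.Lib.PrimeDegree.affine_or_two_transitive e σ he with h | h
  · left
    intro c hc
    obtain ⟨a, b, hab⟩ := h ⟨c, hc⟩
    have hstep : ∀ (n : ℕ) (j : ZMod p), σ ^ n • e j = e (j + n) := by
      intro n
      induction n with
      | zero => intro j; simp
      | succ n ih => intro j; rw [pow_succ', mul_smul, ih, he]; push_cast; ring_nf
    have ha : a ≠ 0 := by
      intro ha
      have h3 := hab 0
      have h4 := hab 1
      rw [ha, zero_mul] at h3 h4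
      have h5 := MulAction.injective _ (h3.trans h4.symm)
      exact zero_ne_one (e.injective h5)
    have htriv : ∀ t : S.Qt x, ((⟨c, hc⟩ : S.C x) * σ * (⟨c, hc⟩ : S.C x)⁻¹ * (σ ^ a.val)⁻¹) • t = t := by
      intro t
      obtain ⟨j, rfl⟩ := e.surjective t
      obtain ⟨i, hi⟩ : ∃ i, j = a * (i + 1) + b := ⟨(j - b) / a - 1, by field_simp; ring⟩
      rw [mul_smul, mul_smul, mul_smul]
      have h4 : (σ ^ a.val)⁻¹ • e j = e (a * i + b) := by
        rw [inv_smul_eq_iff, hstep, ZMod.natCast_zmod_val, hi]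
        congr 1
        ring
      rw [h4]
      have h5 : (⟨c, hc⟩ : S.C x)⁻¹ • e (a * i + b) = e i := by
        rw [inv_smul_eq_iff, hab]
      rw [h5, he, hab, hi]
    have hK : c * σ * c⁻¹ * ((σ : G) ^ a.val)⁻¹ ∈ S.K x := by
      refine ⟨?_, ?_⟩
      · exact ((⟨c, hc⟩ : S.C x) * σ * (⟨c, hc⟩ : S.C x)⁻¹ * (σ ^ a.val)⁻¹).2.1
      · intro z hz
        have h1 := htriv (S.qt hz)
        rw [S.smul_qt, S.qt_eq] at h1
        exact S.symm h1
    have hC : c * σ * c⁻¹ * ((σ : G) ^ a.val)⁻¹ ∈ S.C x :=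
      ((⟨c, hc⟩ : S.C x) * σ * (⟨c, hc⟩ : S.C x)⁻¹ * (σ ^ a.val)⁻¹).2
    obtain ⟨j, hj⟩ := F.C_inf_K h2 hΩ hC hK hy₀
    have hcσ : c * σ * c⁻¹ ∈ F.P := by
      rw [mul_inv_eq_iff_eq_mul] at hj
      rw [hj]
      exact mul_mem (F.z_P j) (pow_mem hσP _)
    have hσK : (σ : G) ∉ S.K x := by
      intro hσK
      have h1 := he 0
      obtain ⟨y, hy, hye⟩ := S.exists_qt (e 0)
      rw [← hye, S.smul_qt] at h1
      have h3 : S.qt (smul_ne_of_fix σ.2.1 hy) = S.qt hy := by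
        rw [S.qt_eq]
        exact S.symm (hσK.2 y hy)
      rw [h3, hye, zero_add] at h1
      exact zero_ne_one (e.injective h1)
    have h9 := F.P_le (F.P.comap (MulAut.conj c).toMonoidHom)
      (by
        rw [Subgroup.mem_comap]
        show c * F.q * c⁻¹ ∈ F.P
        rw [((F.mem_C_iff h2 hΩ hA).mp hc).2, mul_inv_cancel_right]
        exact F.qP) hσP
      (by
        rw [Subgroup.mem_comap]
        exact hcσ) hσK
    intro g hg
    exact h9 hg
  · right
    intro y z v hy hz hv hyz hyv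
    have h6 : ∀ a b c d : S.Qt x, a ≠ b → c ≠ d → ∃ g : S.C x, g • a = c ∧ g • b = d :=
      fun a b c d hab hcd => (is_two_pretransitive_iff (G := S.C x) (α := S.Qt x)).mp h hab hcd
    obtain ⟨c, hc1, hc2⟩ := h6 (S.qt hy) (S.qt hz) (S.qt hy) (S.qt hv)
      (fun h => hyz ((S.qt_eq hy hz).mp h)) (fun h => hyv ((S.qt_eq hy hv).mp h))
    refine ⟨c, c.2, ?_, ?_⟩
    · rw [S.smul_qt, S.qt_eq] at hc1
      exact S.symm hc1
    · rw [S.smul_qt, S.qt_eq] at hc2
      exact S.symm hc2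

/-- The key vanishing lemma. -/
theorem Frame.eq_one_of_C (F : Frame S x) (h2 : TwoT G Ω) (hΩ : Nat.card Ω = p ^ 2 + 1)
    (hA : ∀ k ∈ S.K x, ∃ i : ℕ, k * F.q * k⁻¹ = F.q ^ i) {h : G} (hC : h ∈ S.C x) {y z : Ω}
    (hy : y ≠ x) (hhy : h • y = y) (hz : z ≠ x) (hyz : ¬ S.rel x y z)
    (hfix : ∀ c ∈ S.C x, c • y = y → (c * h * c⁻¹) • z = z) : h = 1 := by
  have hfy : ∀ v, S.rel x y v → h • v = v := fun v hv => F.fix_of_C hC hv hhy
  rcases F.dichotomy_C h2 hΩ hA with hd | hd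
  · have hhz : h • z = z := by
      have := hfix 1 (one_mem _) (one_smul _ _)
      simpa using this
    obtain ⟨g, hg, hgz⟩ := F.tr hy hz
    have hgK : g ∉ S.K x := by
      intro h1
      have := h1.2 y hy
      rw [hgz] at this
      exact hyz this
    have h1 : h * g * h⁻¹ = g := by
      have h3 := hd h hC g hg
      have h4 : (g⁻¹ * (h * g * h⁻¹)) • y = y := by
        have h5 : h⁻¹ • y = y := by rw [inv_smul_eq_iff, hhy]
        rw [mul_smul, mul_smul, mul_smul, h5, hgz, hhz, ← hgz, inv_smul_smul]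
      have h6 := F.reg hy (mul_mem (inv_mem hg) h3) h4
      exact (inv_mul_eq_one.mp h6).symm
    have h3 : F.P ≤ Subgroup.centralizer {h} := by
      apply F.P_le _ _ hg _ hgK
      · rw [Subgroup.mem_centralizer_singleton_iff]
        exact ((F.mem_C_iff h2 hΩ hA).mp hC).2.symm
      · rw [Subgroup.mem_centralizer_singleton_iff]
        exact (mul_inv_eq_iff_eq_mul.mp h1).symm
    apply FaithfulSMul.eq_of_smul_eq_smul (α := Ω)
    intro v
    rw [one_smul]
    by_cases hv : v = x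
    · rw [hv]; exact hC.1
    · obtain ⟨a, ha, rfl⟩ := F.tr hy hv
      have h4 := Subgroup.mem_centralizer_singleton_iff.mp (h3 ha)
      rw [← mul_smul, ← h4, mul_smul, hhy]
  · apply FaithfulSMul.eq_of_smul_eq_smul (α := Ω)
    intro v
    rw [one_smul]
    by_cases hv : v = x
    · rw [hv]; exact hC.1
    by_cases hyv : S.rel x y v
    · exact hfy v hyv
    obtain ⟨c, hc, hcy, hcz⟩ := hd y z v hy hz hv hyz hyv
    obtain ⟨j, hj⟩ := F.cls_z hcy
    have hjC : F.z j ∈ S.C x := F.P_le_C h2 hΩ hA (F.z_P j)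
    have hc'C : (F.z j)⁻¹ * c ∈ S.C x := mul_mem (inv_mem hjC) hc
    have hc'y : ((F.z j)⁻¹ * c) • y = y := by
      rw [mul_smul, ← hj, inv_smul_smul]
    have hc'z : S.rel x v (((F.z j)⁻¹ * c) • z) := by
      rw [mul_smul]
      exact S.rel_K (inv_mem (F.z_K j)) hcz
    set c' := (F.z j)⁻¹ * c with hc'
    have h1 := hfix c'⁻¹ (inv_mem hc'C) (by rw [inv_smul_eq_iff, hc'y])
    rw [inv_inv, mul_smul, mul_smul, inv_smul_eq_iff] at h1
    exact F.fix_of_C hC (S.symm hc'z) h1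

end

end Cfsg.Agent.Lib.AtkSys
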