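import Cfsg.Agent.Lib.AtkSys7

/-!
Class systems of degree `p ^ 2 + 1` with affine kernels: the two-point stabiliser (helper23).
-/

set_option autoImplicit false

namespace Cfsg.Agent.Lib.AtkSys

open MulAction

section

variable {G Ω : Type*} [Group G] [MulAction G Ω] {p : ℕ} [hp : Fact p.Prime]
  [Finite G] [Finite Ω] [FaithfulSMul G Ω] (S : Sys G Ω p)
  (h2 : TwoT G Ω) (hΩ : Nat.card Ω = p ^ 2 + 1) (Fr : ∀ x, Frame S x)
  (hA : ∀ x, ∀ k ∈ S.K x, ∃ i : ℕ, k * (Fr x).q * k⁻¹ = (Fr x).q ^ i)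

include h2 hΩ hA

/-- The two centralisers meet trivially. -/
theorem Sys.C_inf_C {x y : Ω} (hxy : x ≠ y) {h : G} (hx : h ∈ S.C x) (hy : h ∈ S.C y) :
    h = 1 := by
  classical
  obtain ⟨z, hz1, hz2⟩ : ∃ z, z ≠ x ∧ S.rel y x z ∧ ¬ S.rel x y z := by
    by_contra hcon
    push Not at hcon
    have h1 : ({v | S.rel y x v} \ {x} : Set Ω) ⊆ {v | S.rel x y v} \ {y} := by
      rintro v ⟨hv, hvx⟩
      exact ⟨hcon v hvx hv, S.ne' hv⟩
    have hc : ∀ {a b : Ω}, b ≠ a → ({z | S.rel a b z} \ {b} : Set Ω).ncard = p - 1 := by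
      intro a b hba
      have h1 : b ∈ {z | S.rel a b z} := S.refl hba
      rw [Set.ncard_sdiff_singleton_of_mem h1, S.card hba]
    have h3 : ({v | S.rel y x v} \ {x} : Set Ω) = {v | S.rel x y v} \ {y} := by
      apply Set.eq_of_subset_of_ncard_le h1
      rw [hc hxy, hc hxy.symm]
    apply S.not_sym h2 hΩ hp.out.two_le hxy
    intro v hvx hvy
    have h4 : v ∈ ({v | S.rel y x v} \ {x} : Set Ω) ↔ v ∈ ({v | S.rel x y v} \ {y} : Set Ω) := by
      rw [h3]
    constructor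
    · intro h; exact (h4.mpr ⟨h, hvy⟩).1
    · intro h; exact (h4.mp ⟨h, hvx⟩).1
  refine (Fr x).eq_one_of_C h2 hΩ (hA x) hx hxy.symm hy.1 hz1 hz2.2 ?_
  intro c hc hcy
  have h1 : c * h * c⁻¹ ∈ S.C y := by
    have := S.C_conj c hy
    rwa [hcy] at this
  have h3 : c * h * c⁻¹ ∈ S.C x := mul_mem (mul_mem hc hx) (inv_mem hc)
  exact (Fr y).fix_of_C h1 hz2.1 h3.1

/-- The pair of characters of the two-point stabiliser. -/
noncomputable def Sys.Phi (x y : Ω) :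
    ↥(stabilizer G x ⊓ stabilizer G y) →* (ZMod p)ˣ × (ZMod p)ˣ :=
  MonoidHom.prod
    (((Fr x).chi h2 hΩ (hA x)).toHomUnits.comp (Subgroup.inclusion inf_le_left))
    (((Fr y).chi h2 hΩ (hA y)).toHomUnits.comp (Subgroup.inclusion inf_le_right))

theorem Sys.Phi_fst (x y : Ω) (g : ↥(stabilizer G x ⊓ stabilizer G y)) :
    (S.Phi h2 hΩ Fr hA x y g).1 = 1 ↔ (g : G) ∈ S.C x := by
  have h1 := (Fr x).chi_eq_one_iff h2 hΩ (hA x) (Subgroup.inclusion inf_le_left g)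
  exact Units.ext_iff.trans h1

theorem Sys.Phi_snd (x y : Ω) (g : ↥(stabilizer G x ⊓ stabilizer G y)) :
    (S.Phi h2 hΩ Fr hA x y g).2 = 1 ↔ (g : G) ∈ S.C y := by
  have h1 := (Fr y).chi_eq_one_iff h2 hΩ (hA y) (Subgroup.inclusion inf_le_right g)
  exact Units.ext_iff.trans h1

theorem Sys.Phi_injective {x y : Ω} (hxy : x ≠ y) :
    Function.Injective (S.Phi h2 hΩ Fr hA x y) := by
  rw [injective_iff_map_eq_one]
  intro g hg
  have h1 : (g : G) ∈ S.C x := by rw [← S.Phi_fst h2 hΩ Fr hA x y g, hg]; rfl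
  have h3 : (g : G) ∈ S.C y := by rw [← S.Phi_snd h2 hΩ Fr hA x y g, hg]; rfl
  exact Subtype.ext (S.C_inf_C h2 hΩ Fr hA hxy h1 h3)

/-- The two-point stabilisers are abelian. -/
theorem Sys.comm {x y : Ω} (hxy : x ≠ y) {g h : G} (hgx : g • x = x) (hgy : g • y = y)
    (hhx : h • x = x) (hhy : h • y = y) : g * h = h * g := by
  have h1 : (⟨g, Subgroup.mem_inf.mpr ⟨hgx, hgy⟩⟩ : ↥(stabilizer G x ⊓ stabilizer G y)) *
      ⟨h, Subgroup.mem_inf.mpr ⟨hhx, hhy⟩⟩ = ⟨h, Subgroup.mem_inf.mpr ⟨hhx, hhy⟩⟩ *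
      ⟨g, Subgroup.mem_inf.mpr ⟨hgx, hgy⟩⟩ := by
    apply S.Phi_injective h2 hΩ Fr hA hxy
    rw [map_mul, map_mul, mul_comm]
  exact congrArg Subtype.val h1

/-- Nontrivial elements of the centraliser fixing a point fix only its class. -/
theorem Sys.rel_of_fix {x y z : Ω} {h : G} (hC : h ∈ S.C x) (hy : y ≠ x) (hhy : h • y = y)
    (hh1 : h ≠ 1) (hz : z ≠ x) (hhz : h • z = z) : S.rel x y z := by
  by_contra hcon
  apply hh1
  refine (Fr x).eq_one_of_C h2 hΩ (hA x) hC hy hhy hz hcon ?_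
  intro c hc hcy
  rw [S.comm h2 hΩ Fr hA hy.symm hc.1 hcy hC.1 hhy, mul_inv_cancel_right, hhz]

/-- The number of fixed points of nontrivial elements of the centraliser. -/
theorem Sys.card_fix {x y : Ω} {h : G} (hC : h ∈ S.C x) (hy : y ≠ x) (hhy : h • y = y)
    (hh1 : h ≠ 1) : {v : Ω | h • v = v}.ncard = p + 1 := by
  have h1 : {v : Ω | h • v = v} = insert x {z | S.rel x y z} := by
    ext v
    constructor
    · intro hv
      by_cases hvx : v = x
      · left; exact hvx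
      · right; exact S.rel_of_fix h2 hΩ Fr hA hC hy hhy hh1 hvx hv
    · intro hv
      rcases Set.mem_insert_iff.mp hv with rfl | hv
      · exact hC.1
      · exact (Fr x).fix_of_C hC hv hhy
  have h3 : x ∉ {z | S.rel x y z} := fun h => S.ne' h rfl
  rw [h1, Set.ncard_insert_of_notMem h3 (Set.toFinite _), S.card hy]

/-- Involutions outside the centraliser invert `q`. -/
theorem Sys.inverts {x : Ω} {t : G} (htx : t • x = x) (ht : t * t = 1) (htC : t ∉ S.C x)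
    (j : ZMod p) : t * (Fr x).z j = (Fr x).z (-j) * t := by
  have h1 := (Fr x).chi_spec h2 hΩ (hA x) ⟨t, htx⟩
  set c := (Fr x).chi h2 hΩ (hA x) ⟨t, htx⟩ with hc
  have h3 : c ≠ 1 := by
    intro h
    exact htC (((Fr x).chi_eq_one_iff h2 hΩ (hA x) ⟨t, htx⟩).mp h)
  have h4 : c * c = 1 := by
    rw [hc, ← map_mul]
    have : (⟨t, htx⟩ : stabilizer G x) * ⟨t, htx⟩ = 1 := Subtype.ext ht
    rw [this, map_one]
  have h5 : c = -1 := by
    rcases mul_self_eq_one_iff.mp h4 with h | h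
    · exact absurd h h3
    · exact h
  rw [h5, (Fr x).z_neg, (Fr x).z_one] at h1
  have h6 : t * (Fr x).q ^ j.val * t⁻¹ = ((Fr x).q ^ j.val)⁻¹ := by
    have h7 : t * (Fr x).q * t⁻¹ = (Fr x).q⁻¹ := h1
    rw [← conj_pow, h7, inv_pow]
  rw [(Fr x).z_neg]
  exact mul_inv_eq_iff_eq_mul.mp h6

/-- Fixed points of an inverting involution in one class are equal. -/
theorem Sys.fix_unique (hp3 : 3 ≤ p) {x v v' : Ω} {t : G} (htx : t • x = x) (ht : t * t = 1)
    (htC : t ∉ S.C x) (h : S.rel x v v') (hv : t • v = v) (hv' : t • v' = v') : v = v' := by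
  obtain ⟨j, rfl⟩ := (Fr x).cls_z h
  rw [← mul_smul, S.inverts h2 hΩ Fr hA htx ht htC, mul_smul, hv] at hv'
  have h1 := (Fr x).z_inj (S.ne h) hv'
  have h3 : j = 0 := by
    have h4 : (2 : ZMod p) * j = 0 := by
      have : j + j = 0 := by
        calc j + j = -j + j := by rw [h1]
          _ = 0 := neg_add_cancel j
      rw [two_mul]; exact this
    rcases mul_eq_zero.mp h4 with h5 | h5
    · exfalso
      have h6 : ((2 : ℕ) : ZMod p) = 0 := by exact_mod_cast h5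
      rw [ZMod.natCast_eq_zero_iff] at h6
      have := Nat.le_of_dvd (by norm_num) h6
      omega
    · exact h5
  rw [h3, (Fr x).z_zero, one_smul]

/-- An involution in the centraliser at `y` fixing `x` lies in the kernel at `x`. -/
theorem Sys.mem_K_of_C (hp3 : 3 ≤ p) {x y : Ω} (hxy : x ≠ y) {t : G} (htC : t ∈ S.C y)
    (htx : t • x = x) (ht : t * t = 1) (ht1 : t ≠ 1) : t ∈ S.K x := by
  classical
  have htCx : t ∉ S.C x := fun h => ht1 (S.C_inf_C h2 hΩ Fr hA hxy h htC)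
  have hf := S.card_fix h2 hΩ Fr hA htC hxy htx ht1
  let T : Set Ω := {v : Ω | t • v = v} \ {x}
  have hT : T.ncard = p := by
    have h1 : x ∈ {v : Ω | t • v = v} := htx
    show ({v : Ω | t • v = v} \ {x}).ncard = p
    rw [Set.ncard_sdiff_singleton_of_mem h1, hf]
    omega
  let φ : T × ZMod p → {v : Ω | v ≠ x} := fun u =>
    ⟨(Fr x).z u.2 • u.1.1, S.ne' ((Fr x).rel_z u.1.2.2 u.2)⟩
  have hφi : Function.Injective φ := by
    rintro ⟨⟨v, hv⟩, i⟩ ⟨⟨v', hv'⟩, j⟩ h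
    have h1 : (Fr x).z i • v = (Fr x).z j • v' := congrArg Subtype.val h
    have h3 : S.rel x v v' := by
      have h5 := (Fr x).rel_z hv.2 i
      rw [h1] at h5
      exact S.trans h5 (S.symm ((Fr x).rel_z hv'.2 j))
    have h4 := S.fix_unique h2 hΩ Fr hA hp3 htx ht htCx h3 hv.1 hv'.1
    subst h4
    rw [(Fr x).z_inj hv.2 h1]
  have hφ : Function.Bijective φ := by
    refine (Nat.bijective_iff_injective_and_card _).mpr ⟨hφi, ?_⟩
    rw [Nat.card_prod, Nat.card_zmod, Nat.card_coe_set_eq, hT, Nat.card_coe_set_eq, ncard_ne hΩ, sq]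
  refine ⟨htx, ?_⟩
  intro v hv
  obtain ⟨⟨⟨w, hw⟩, j⟩, h⟩ := hφ.2 ⟨v, hv⟩
  have h1 : (Fr x).z j • w = v := congrArg Subtype.val h
  rw [← h1, ← mul_smul, S.inverts h2 hΩ Fr hA htx ht htCx, mul_smul, hw.1]
  exact S.trans (S.symm ((Fr x).rel_z hw.2 j)) ((Fr x).rel_z hw.2 _)

end

end Cfsg.Agent.Lib.AtkSys
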