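import Cfsg.Agent.Lib.AtkSys8

/-!
Class systems of degree `p ^ 2 + 1` with affine kernels: counting involutions (helper23).
-/

set_option autoImplicit false

namespace Cfsg.Agent.Lib.AtkSys

open MulAction

section count

variable {G Ω : Type*} [Group G] [MulAction G Ω] [Fintype Ω]

open Classical in
/-- Double counting of pairs of fixed points. -/
theorem count_fix (B : Finset G) (m c : ℕ) (hm : ∀ t ∈ B, {v : Ω | t • v = v}.ncard = m)
    (hc : ∀ x y : Ω, x ≠ y → (B.filter fun t => t • x = x ∧ t • y = y).card = c) :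
    B.card * (m * m - m) = (Nat.card Ω * Nat.card Ω - Nat.card Ω) * c := by
  have h1 : ∀ t ∈ B, ((Finset.univ.filter fun v : Ω => t • v = v).offDiag).card = m * m - m := by
    intro t ht
    rw [Finset.offDiag_card]
    have h3 : (Finset.univ.filter fun v : Ω => t • v = v).card = m := by
      rw [← hm t ht, Set.ncard_eq_toFinset_card']
      congr 1
      ext v
      simp
    rw [h3]
  have h3 : ∑ t ∈ B, ((Finset.univ.filter fun v : Ω => t • v = v).offDiag).card =
      ∑ u ∈ (Finset.univ : Finset Ω).offDiag,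
        (B.filter fun t => t • u.1 = u.1 ∧ t • u.2 = u.2).card := by
    have e1 : ∀ t ∈ B, ((Finset.univ.filter fun v : Ω => t • v = v).offDiag).card =
        ∑ u ∈ (Finset.univ : Finset Ω).offDiag, if t • u.1 = u.1 ∧ t • u.2 = u.2 then 1 else 0 := by
      intro t _
      rw [← Finset.card_filter]
      congr 1
      ext u
      simp only [Finset.mem_offDiag, Finset.mem_filter, Finset.mem_univ, true_and]
      tauto
    rw [Finset.sum_congr rfl e1, Finset.sum_comm]
    apply Finset.sum_congr rfl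
    intro u _
    rw [Finset.card_filter]
  rw [Finset.sum_congr rfl h1, Finset.sum_const, smul_eq_mul,
    Finset.sum_congr rfl (fun u hu => hc u.1 u.2 (Finset.mem_offDiag.mp hu).2.2),
    Finset.sum_const, Finset.offDiag_card, smul_eq_mul, Finset.card_univ,
    ← Nat.card_eq_fintype_card] at h3
  exact h3

open Classical in
/-- Double counting of fixed points different from a given one. -/
theorem count_fix_one (B : Finset G) (x : Ω) (m : ℕ)
    (hm : ∀ t ∈ B, t • x = x → {v : Ω | t • v = v}.ncard = m)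
    (hc : ∀ y : Ω, y ≠ x → (B.filter fun t => t • x = x ∧ t • y = y).card = 1) :
    (B.filter fun t => t • x = x).card * (m - 1) = Nat.card Ω - 1 := by
  have h1 : ∀ t ∈ B.filter (fun t => t • x = x),
      ((Finset.univ.filter fun v : Ω => t • v = v).erase x).card = m - 1 := by
    intro t ht
    rw [Finset.mem_filter] at ht
    rw [Finset.card_erase_of_mem (by simpa using ht.2)]
    have h3 : (Finset.univ.filter fun v : Ω => t • v = v).card = m := by
      rw [← hm t ht.1 ht.2, Set.ncard_eq_toFinset_card']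
      congr 1
      ext v
      simp
    rw [h3]
  have h3 : ∑ t ∈ B.filter (fun t => t • x = x),
      ((Finset.univ.filter fun v : Ω => t • v = v).erase x).card =
      ∑ y ∈ (Finset.univ : Finset Ω).erase x,
        (B.filter fun t => t • x = x ∧ t • y = y).card := by
    have e1 : ∀ t ∈ B.filter (fun t => t • x = x),
        ((Finset.univ.filter fun v : Ω => t • v = v).erase x).card =
        ∑ y ∈ (Finset.univ : Finset Ω).erase x, if t • y = y then 1 else 0 := by
      intro t _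
      rw [← Finset.card_filter]
      congr 1
      ext u
      simp only [Finset.mem_erase, Finset.mem_filter, Finset.mem_univ, true_and]
      tauto
    rw [Finset.sum_congr rfl e1, Finset.sum_comm]
    apply Finset.sum_congr rfl
    intro u _
    rw [← Finset.card_filter, Finset.filter_filter]
  rw [Finset.sum_congr rfl h1, Finset.sum_const, smul_eq_mul,
    Finset.sum_congr rfl (fun y hy => hc y (Finset.ne_of_mem_erase hy)),
    Finset.sum_const, Finset.card_erase_of_mem (Finset.mem_univ _), smul_eq_mul, mul_one,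
    Finset.card_univ, ← Nat.card_eq_fintype_card] at h3
  exact h3

open Classical in
/-- Double counting of moved points. -/
theorem count_move (B : Finset G) (m c : ℕ) (hm : ∀ t ∈ B, {v : Ω | t • v = v}.ncard = m)
    (hc : ∀ x y : Ω, x ≠ y → (B.filter fun t => t • x = y).card ≤ c) :
    B.card * (Nat.card Ω - m) ≤ (Nat.card Ω * Nat.card Ω - Nat.card Ω) * c := by
  have h1 : ∀ t ∈ B, (Finset.univ.filter fun v : Ω => t • v ≠ v).card = Nat.card Ω - m := by
    intro t ht
    have h3 : (Finset.univ.filter fun v : Ω => t • v = v).card = m := by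
      rw [← hm t ht, Set.ncard_eq_toFinset_card']
      congr 1
      ext v
      simp
    have h4 := Finset.card_filter_add_card_filter_not (s := (Finset.univ : Finset Ω))
      (fun v : Ω => t • v = v)
    rw [Finset.card_univ, ← Nat.card_eq_fintype_card, h3] at h4
    have h5 : (Finset.univ.filter fun v : Ω => t • v ≠ v).card =
      (Finset.univ.filter fun v : Ω => ¬ t • v = v).card := rfl
    rw [h5]
    omega
  have h3 : ∑ t ∈ B, (Finset.univ.filter fun v : Ω => t • v ≠ v).card =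
      ∑ u ∈ (Finset.univ : Finset Ω).offDiag, (B.filter fun t => t • u.1 = u.2).card := by
    have e1 : ∀ t ∈ B, (Finset.univ.filter fun v : Ω => t • v ≠ v).card =
        ∑ u ∈ (Finset.univ : Finset Ω).offDiag, if t • u.1 = u.2 then 1 else 0 := by
      intro t _
      rw [← Finset.card_filter]
      apply Finset.card_bij (fun v _ => (v, t • v))
      · intro v hv
        simp only [Finset.mem_filter, Finset.mem_univ, true_and] at hv
        simp only [Finset.mem_filter, Finset.mem_offDiag, Finset.mem_univ, true_and, and_true]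
        exact Ne.symm hv
      · intro v _ w _ h
        exact congrArg Prod.fst h
      · rintro ⟨v, w⟩ h
        simp only [Finset.mem_filter, Finset.mem_offDiag, Finset.mem_univ, true_and] at h
        refine ⟨v, ?_, ?_⟩
        · simp only [Finset.mem_filter, Finset.mem_univ, true_and]
          rw [h.2]; exact Ne.symm h.1
        · rw [h.2]
    rw [Finset.sum_congr rfl e1, Finset.sum_comm]
    apply Finset.sum_congr rfl
    intro u _
    rw [Finset.card_filter]
  rw [Finset.sum_congr rfl h1, Finset.sum_const, smul_eq_mul] at h3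
  rw [h3]
  have h4 : ∑ u ∈ (Finset.univ : Finset Ω).offDiag, (B.filter fun t => t • u.1 = u.2).card ≤
      ∑ u ∈ (Finset.univ : Finset Ω).offDiag, c :=
    Finset.sum_le_sum (fun u hu => hc u.1 u.2 (Finset.mem_offDiag.mp hu).2.2)
  rw [Finset.sum_const, Finset.offDiag_card, smul_eq_mul, Finset.card_univ,
    ← Nat.card_eq_fintype_card] at h4
  exact h4

end count

section

variable {G Ω : Type*} [Group G] [MulAction G Ω] {p : ℕ} [hp : Fact p.Prime]
  [Finite G] [Finite Ω] [FaithfulSMul G Ω] (S : Sys G Ω p)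
  (h2 : TwoT G Ω) (hΩ : Nat.card Ω = p ^ 2 + 1) (Fr : ∀ x, Frame S x)
  (hA : ∀ x, ∀ k ∈ S.K x, ∃ i : ℕ, k * (Fr x).q * k⁻¹ = (Fr x).q ^ i)
  (hp3 : 3 ≤ p)
  (hinv : ∀ t : G, t * t = 1 → t ≠ 1 → {v : Ω | t • v = v}.ncard % 4 = 2)

omit hp [Finite G] [Finite Ω] [FaithfulSMul G Ω] in
theorem inv_of_sq {t : G} (ht : t * t = 1) : t⁻¹ = t := by
  rw [inv_eq_iff_mul_eq_one]; exact ht

omit hp [Finite G] [Finite Ω] [FaithfulSMul G Ω] in
theorem mul_sq_of_comm {s t : G} (hs : s * s = 1) (ht : t * t = 1) (hst : s * t = t * s) :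
    (s * t) * (s * t) = 1 := by
  calc (s * t) * (s * t) = s * (t * s) * t := by group
    _ = s * (s * t) * t := by rw [hst]
    _ = (s * s) * (t * t) := by group
    _ = 1 := by rw [hs, ht, one_mul]

omit hp [Finite G] [Finite Ω] [FaithfulSMul G Ω] in
theorem conj_sq {g t : G} (ht : t * t = 1) : (g * t * g⁻¹) * (g * t * g⁻¹) = 1 := by
  calc (g * t * g⁻¹) * (g * t * g⁻¹) = g * (t * t) * g⁻¹ := by group
    _ = 1 := by rw [ht, mul_one, mul_inv_cancel]

omit hp [Finite G] [Finite Ω] [FaithfulSMul G Ω] in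
theorem conj_ne_one {g t : G} (ht : t ≠ 1) : g * t * g⁻¹ ≠ 1 := by
  intro h
  rw [mul_inv_eq_iff_eq_mul, one_mul] at h
  exact ht (mul_eq_left.mp h)

omit hp [Finite G] [Finite Ω] [FaithfulSMul G Ω] in
theorem ncard_fix_conj (g t : G) :
    {v : Ω | (g * t * g⁻¹) • v = v}.ncard = {v : Ω | t • v = v}.ncard := by
  have h1 : {v : Ω | (g * t * g⁻¹) • v = v} = (fun v => g • v) '' {v : Ω | t • v = v} := by
    ext v
    constructor
    · intro h
      have h' : (g * t * g⁻¹) • v = v := h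
      refine ⟨g⁻¹ • v, ?_, smul_inv_smul _ _⟩
      show t • g⁻¹ • v = g⁻¹ • v
      rw [mul_smul, mul_smul] at h'
      rw [eq_inv_smul_iff]
      exact h'
    · rintro ⟨w, hw, rfl⟩
      have hw' : t • w = w := hw
      show (g * t * g⁻¹) • g • w = g • w
      rw [mul_smul, mul_smul, inv_smul_smul, hw']
  rw [h1, Set.ncard_image_of_injective _ (MulAction.injective g)]

include h2 hΩ hA

/-- Products of two elements with involutory square inverting `q` centralise it. -/
theorem Sys.mul_mem_C {x : Ω} {s t : G} (hsx : s • x = x) (hs : s * s = 1) (hsC : s ∉ S.C x)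
    (htx : t • x = x) (ht : t * t = 1) (htC : t ∉ S.C x) : s * t ∈ S.C x := by
  rw [(Fr x).mem_C_iff h2 hΩ (hA x)]
  refine ⟨by rw [mul_smul, htx, hsx], ?_⟩
  have h1 := S.inverts h2 hΩ Fr hA hsx hs hsC (-1)
  have h3 := S.inverts h2 hΩ Fr hA htx ht htC 1
  rw [neg_neg, (Fr x).z_one] at h1
  rw [(Fr x).z_one] at h3
  rw [mul_assoc, h3, ← mul_assoc, h1, mul_assoc]

include hp3 hinv

/-- Case I: an involution centralising `q`. -/
theorem Sys.caseI {x₀ y₀ : Ω} (hxy₀ : x₀ ≠ y₀) {t₀ : G} (ht₀C : t₀ ∈ S.C x₀) (ht₀y : t₀ • y₀ = y₀)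
    (ht₀ : t₀ * t₀ = 1) (ht₀1 : t₀ ≠ 1) : False := by
  classical
  have : Fintype Ω := Fintype.ofFinite Ω
  have : Fintype G := Fintype.ofFinite G
  have hE : ∀ x y : Ω, x ≠ y → ∃ t ∈ S.C x, t • y = y ∧ t * t = 1 ∧ t ≠ 1 := by
    intro x y hxy
    obtain ⟨g, hgx, hgy⟩ := h2 x₀ y₀ x y hxy₀ hxy
    refine ⟨g * t₀ * g⁻¹, ?_, ?_, ?_, ?_⟩
    · have := S.C_conj g ht₀C
      rwa [hgx] at this
    · rw [← hgy, mul_smul, mul_smul, inv_smul_smul, ht₀y]
    · calc (g * t₀ * g⁻¹) * (g * t₀ * g⁻¹) = g * (t₀ * t₀) * g⁻¹ := by group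
        _ = 1 := by rw [ht₀, mul_one, mul_inv_cancel]
    · intro h
      apply ht₀1
      have h3 : g * t₀ = g := by
        rw [mul_inv_eq_iff_eq_mul, one_mul] at h
        exact h
      exact mul_eq_left.mp h3
  let B : Finset G := Finset.univ.filter fun t =>
    t * t = 1 ∧ t ≠ 1 ∧ {v : Ω | t • v = v}.ncard = p + 1
  have hB : ∀ t, t ∈ B ↔ t * t = 1 ∧ t ≠ 1 ∧ {v : Ω | t • v = v}.ncard = p + 1 := by
    intro t; simp [B]
  have hcount : ∀ x y : Ω, x ≠ y → (B.filter fun t => t • x = x ∧ t • y = y).card = 2 := by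
    intro x y hxy
    obtain ⟨t₁, ht₁C, ht₁y, ht₁, ht₁1⟩ := hE x y hxy
    obtain ⟨t₂, ht₂C, ht₂x, ht₂, ht₂1⟩ := hE y x hxy.symm
    have ht₁Cy : t₁ ∉ S.C y := fun h => ht₁1 (S.C_inf_C h2 hΩ Fr hA hxy ht₁C h)
    have ht₂Cx : t₂ ∉ S.C x := fun h => ht₂1 (S.C_inf_C h2 hΩ Fr hA hxy h ht₂C)
    have hne : t₁ ≠ t₂ := fun h => ht₂Cx (h ▸ ht₁C)
    have huniq : ∀ {a b : Ω}, a ≠ b → ∀ {s t : G}, s ∈ S.C a → t ∈ S.C a → s • b = b → t • b = b →
        s * s = 1 → t * t = 1 → s ≠ 1 → t ≠ 1 → s = t := by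
      intro a b hab s t hsC htC hsb htb hs ht hs1 ht1
      have h1 : s ∉ S.C b := fun h => hs1 (S.C_inf_C h2 hΩ Fr hA hab hsC h)
      have h3 : t ∉ S.C b := fun h => ht1 (S.C_inf_C h2 hΩ Fr hA hab htC h)
      have h4 := S.mul_mem_C h2 hΩ Fr hA hsb hs h1 htb ht h3
      have h5 := S.C_inf_C h2 hΩ Fr hA hab (mul_mem hsC htC) h4
      rw [mul_eq_one_iff_eq_inv, inv_of_sq ht] at h5
      exact h5
    have hset : (B.filter fun t => t • x = x ∧ t • y = y) = {t₁, t₂} := by
      ext t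
      rw [Finset.mem_filter, hB, Finset.mem_insert, Finset.mem_singleton]
      constructor
      · rintro ⟨⟨ht, ht1, htf⟩, htx, hty⟩
        by_cases htC : t ∈ S.C x
        · left
          exact huniq hxy htC ht₁C hty ht₁y ht ht₁ ht1 ht₁1
        by_cases htC' : t ∈ S.C y
        · right
          exact huniq hxy.symm htC' ht₂C htx ht₂x ht ht₂ ht1 ht₂1
        exfalso
        -- `t * t₁` is `t₂`
        have hcomm : t * t₁ = t₁ * t := S.comm h2 hΩ Fr hA hxy htx hty ht₁C.1 ht₁y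
        have h1 : t * t₁ ∈ S.C y := S.mul_mem_C h2 hΩ Fr hA hty ht htC' ht₁y ht₁ ht₁Cy
        have h3 : t * t₁ ≠ 1 := by
          intro h
          rw [mul_eq_one_iff_eq_inv, inv_of_sq ht₁] at h
          exact htC (h ▸ ht₁C)
        have h4 : t * t₁ = t₂ := huniq hxy.symm h1 ht₂C (by rw [mul_smul, ht₁C.1, htx]) ht₂x
          (mul_sq_of_comm ht ht₁ hcomm) ht₂ h3 ht₂1
        have h5 : t = t₂ * t₁ := by rw [← h4, mul_assoc, ht₁, mul_one]
        have h6 : t₂ ∈ S.K x := S.mem_K_of_C h2 hΩ Fr hA hp3 hxy ht₂C ht₂x ht₂ ht₂1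
        have h7 : {v : Ω | t • v = v} ⊆ {x, y} := by
          intro v hv
          by_cases hvx : v = x
          · left; exact hvx
          right
          have hv' : t • v = v := hv
          have e1 : t₁ • v = t₂ • v := by
            have : t₂ • (t₂ • (t₁ • v)) = t₁ • v := by rw [← mul_smul, ht₂, one_smul]
            rw [← this, ← mul_smul t₂ t₁, ← h5, hv']
          have e2 : S.rel x v (t₁ • v) := by rw [e1]; exact h6.2 v hvx
          obtain ⟨j, hj⟩ := (Fr x).cls_z e2
          have e3 : t₁ • v = v := by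
            have e4 : t₁ • (t₁ • v) = v := by rw [← mul_smul, ht₁, one_smul]
            have e5 : (Fr x).z (j + j) • v = v := by
              rw [(Fr x).z_add, mul_smul, hj, ← mul_smul,
                ← ht₁C.2 _ ((Fr x).z_K j) ((Fr x).z_pow j), mul_smul, hj, e4]
            have e6 : j + j = 0 := by
              apply (Fr x).z_inj hvx
              rw [e5, (Fr x).z_zero, one_smul]
            have e7 : j = 0 := by
              have h4 : (2 : ZMod p) * j = 0 := by rw [two_mul]; exact e6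
              rcases mul_eq_zero.mp h4 with h5 | h5
              · exfalso
                have h6 : ((2 : ℕ) : ZMod p) = 0 := by exact_mod_cast h5
                rw [ZMod.natCast_eq_zero_iff] at h6
                have := Nat.le_of_dvd (by norm_num) h6
                omega
              · exact h5
            rw [← hj, e7, (Fr x).z_zero, one_smul]
          have e8 : S.rel x y v := S.rel_of_fix h2 hΩ Fr hA ht₁C hxy.symm ht₁y ht₁1 hvx e3
          have e9 : t₂ • v = v := by rw [← e1, e3]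
          have e10 : t₂ • y = y := ht₂C.1
          exact (S.fix_unique h2 hΩ Fr hA hp3 ht₂x ht₂ ht₂Cx e8 e10 e9).symm
        have h8 := Set.ncard_le_ncard h7 (Set.toFinite _)
        rw [htf] at h8
        have h9 := Set.ncard_insert_le x {y}
        rw [Set.ncard_singleton] at h9
        omega
      · rintro (rfl | rfl)
        · exact ⟨⟨ht₁, ht₁1, S.card_fix h2 hΩ Fr hA ht₁C hxy.symm ht₁y ht₁1⟩, ht₁C.1, ht₁y⟩
        · exact ⟨⟨ht₂, ht₂1, S.card_fix h2 hΩ Fr hA ht₂C hxy ht₂x ht₂1⟩, ht₂x, ht₂C.1⟩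
    rw [hset, Finset.card_pair hne]
  have h1 := count_fix B (p + 1) 2 (fun t ht => ((hB t).mp ht).2.2) hcount
  rw [hΩ] at h1
  have h3 : (p + 1) * (p + 1) - (p + 1) = (p + 1) * p := by
    have : (p + 1) * (p + 1) = (p + 1) * p + (p + 1) := by ring
    omega
  have h4 : (p ^ 2 + 1) * (p ^ 2 + 1) - (p ^ 2 + 1) = (p ^ 2 + 1) * (p * p) := by
    have : (p ^ 2 + 1) * (p ^ 2 + 1) = (p ^ 2 + 1) * (p * p) + (p ^ 2 + 1) := by ring
    omega
  rw [h3, h4] at h1
  have h5 : B.card * (p + 1) = 2 * p * (p ^ 2 + 1) := by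
    apply Nat.eq_of_mul_eq_mul_right hp.out.pos
    calc B.card * (p + 1) * p = B.card * ((p + 1) * p) := by ring
      _ = (p ^ 2 + 1) * (p * p) * 2 := h1
      _ = 2 * p * (p ^ 2 + 1) * p := by ring
  have h6 : (p + 1) ∣ 2 * p * (p ^ 2 + 1) := ⟨B.card, by rw [← h5]; ring⟩
  have h7 : (p + 1) ∣ 2 * p * (p ^ 2 + 1) + 4 := by
    refine ⟨2 * p ^ 2 + 4 - 2 * p, ?_⟩
    have h8 : 2 * p ≤ 2 * p ^ 2 + 4 := by nlinarith
    zify [h8]
    ring
  have h8 : (p + 1) ∣ 4 := (Nat.dvd_add_right h6).mp h7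
  have h9 := Nat.le_of_dvd (by norm_num) h8
  have h10 : p = 3 := by omega
  have h11 := S.card_fix h2 hΩ Fr hA ht₀C hxy₀.symm ht₀y ht₀1
  have h12 := hinv t₀ ht₀ ht₀1
  rw [h11, h10] at h12
  omega

omit hinv in
/-- The order of the two-point stabilisers in case II. -/
theorem Sys.two_mul_card_le (hII : ∀ x y : Ω, x ≠ y → ∀ t ∈ S.C x, t • y = y → t * t = 1 → t = 1)
    {x y : Ω} (hxy : x ≠ y) :
    2 * Nat.card ↥(stabilizer G x ⊓ stabilizer G y) ≤ (p - 1) * (p - 1) := by
  classical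
  have h01 : (1 : (ZMod p)ˣ) ≠ -1 := by
    intro h
    have h1 : (1 : ZMod p) = -1 := by
      have := congrArg Units.val h
      simpa using this
    have h3 : ((2 : ℕ) : ZMod p) = 0 := by
      have : (1 : ZMod p) + 1 = 0 := by
        calc (1 : ZMod p) + 1 = -1 + 1 := by rw [← h1]
          _ = 0 := neg_add_cancel 1
      push_cast
      rw [← this]; norm_num
    rw [ZMod.natCast_eq_zero_iff] at h3
    have := Nat.le_of_dvd (by norm_num) h3
    omega
  have h1 : Nat.card (S.Phi h2 hΩ Fr hA x y).range =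
      Nat.card ↥(stabilizer G x ⊓ stabilizer G y) :=
    (Nat.card_congr (MonoidHom.ofInjective (S.Phi_injective h2 hΩ Fr hA hxy)).toEquiv).symm
  have h3 : (S.Phi h2 hΩ Fr hA x y).range ≠ ⊤ := by
    intro h
    have h4 : ((1, -1) : (ZMod p)ˣ × (ZMod p)ˣ) ∈ (S.Phi h2 hΩ Fr hA x y).range := by
      rw [h]; trivial
    obtain ⟨g, hg⟩ := h4
    have h5 : (g : G) ∈ S.C x := by
      rw [← S.Phi_fst h2 hΩ Fr hA x y g, hg]
    have h6 : g * g = 1 := by
      apply S.Phi_injective h2 hΩ Fr hA hxy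
      rw [map_mul, hg, map_one]
      ext <;> simp
    have h7 : (g : G) = 1 := hII x y hxy g h5 (Subgroup.mem_inf.mp g.2).2 (congrArg Subtype.val h6)
    have h8 : g = 1 := Subtype.ext h7
    rw [h8, map_one] at hg
    exact h01 (congrArg Prod.snd hg)
  have h4 := Subgroup.card_mul_index (S.Phi h2 hΩ Fr hA x y).range
  have h5 : Nat.card ((ZMod p)ˣ × (ZMod p)ˣ) = (p - 1) * (p - 1) := by
    rw [Nat.card_prod, Nat.card_eq_fintype_card, ZMod.card_units]
  rw [h5, h1] at h4
  have h6 : 2 ≤ (S.Phi h2 hΩ Fr hA x y).range.index := by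
    have h7 : (S.Phi h2 hΩ Fr hA x y).range.index ≠ 1 := by
      rw [Ne, Subgroup.index_eq_one]; exact h3
    have h8 : (S.Phi h2 hΩ Fr hA x y).range.index ≠ 0 := Subgroup.index_ne_zero_of_finite
    omega
  rw [← h4, mul_comm]
  exact Nat.mul_le_mul_left _ h6

/-- Case II: no involution centralises `q`. -/
theorem Sys.caseII [Nonempty Ω]
    (hII : ∀ x y : Ω, x ≠ y → ∀ t ∈ S.C x, t • y = y → t * t = 1 → t = 1) : False := by
  classical
  have : Fintype Ω := Fintype.ofFinite Ω
  have : Fintype G := Fintype.ofFinite G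
  -- two fixed points
  have htwo : ∀ t : G, t * t = 1 → t ≠ 1 → ∃ x y : Ω, x ≠ y ∧ t • x = x ∧ t • y = y := by
    intro t ht ht1
    have h1 := hinv t ht ht1
    have h3 : 1 < {v : Ω | t • v = v}.ncard := by omega
    obtain ⟨x, hx, y, hy, hxy⟩ := (Set.one_lt_ncard (Set.toFinite _)).mp h3
    exact ⟨x, y, hxy, hx, hy⟩
  -- an involution
  obtain ⟨t₀, ht₀, ht₀1⟩ : ∃ t : G, t * t = 1 ∧ t ≠ 1 := by
    obtain ⟨x⟩ := ‹Nonempty Ω›
    have h1 : IsPretransitive G Ω := by
      refine ⟨fun a b => ?_⟩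
      by_cases hab : a = b
      · exact ⟨1, by rw [one_smul, hab]⟩
      · obtain ⟨g, hg, _⟩ := h2 a b b a hab (Ne.symm hab)
        exact ⟨g, hg⟩
    have h3 := index_stabilizer_of_transitive G x
    rw [hΩ] at h3
    have h4 : 2 ∣ Nat.card G := by
      refine Dvd.dvd.trans ?_ (Subgroup.index_dvd_card (stabilizer G x))
      rw [h3]
      obtain ⟨k, hk⟩ := hp.out.eq_two_or_odd'.resolve_left (by omega)
      rw [hk]
      exact ⟨2 * k ^ 2 + 2 * k + 1, by ring⟩
    have : Fact (Nat.Prime 2) := ⟨Nat.prime_two⟩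
    obtain ⟨t, ht⟩ := exists_prime_orderOf_dvd_card' (G := G) 2 h4
    refine ⟨t, ?_, ?_⟩
    · have := pow_orderOf_eq_one t
      rw [ht, sq] at this
      exact this
    · intro h
      rw [h, orderOf_one] at ht
      omega
  obtain ⟨x₀, y₀, hxy₀, hx₀, hy₀⟩ := htwo t₀ ht₀ ht₀1
  have hE : ∀ x y : Ω, x ≠ y → ∃ g : G, (g * t₀ * g⁻¹) • x = x ∧ (g * t₀ * g⁻¹) • y = y := by
    intro x y hxy
    obtain ⟨g, hgx, hgy⟩ := h2 x₀ y₀ x y hxy₀ hxy
    refine ⟨g, ?_, ?_⟩
    · rw [← hgx, mul_smul, mul_smul, inv_smul_smul, hx₀]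
    · rw [← hgy, mul_smul, mul_smul, inv_smul_smul, hy₀]
  have huniq : ∀ {x y : Ω}, x ≠ y → ∀ {s t : G}, s • x = x → s • y = y → t • x = x → t • y = y →
      s * s = 1 → t * t = 1 → s ≠ 1 → t ≠ 1 → s = t := by
    intro x y hxy s t hsx hsy htx hty hs ht hs1 ht1
    have hsC : s ∉ S.C x := fun h => hs1 (hII x y hxy s h hsy hs)
    have htC : t ∉ S.C x := fun h => ht1 (hII x y hxy t h hty ht)
    have h1 := S.mul_mem_C h2 hΩ Fr hA hsx hs hsC htx ht htC
    have h3 := hII x y hxy _ h1 (by rw [mul_smul, hty, hsy])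
      (mul_sq_of_comm hs ht (S.comm h2 hΩ Fr hA hxy hsx hsy htx hty))
    rw [mul_eq_one_iff_eq_inv, inv_of_sq ht] at h3
    exact h3
  obtain ⟨m, hm⟩ : ∃ m, m = {v : Ω | t₀ • v = v}.ncard := ⟨_, rfl⟩
  let B : Finset G := Finset.univ.filter fun t => t * t = 1 ∧ t ≠ 1
  have hB : ∀ t, t ∈ B ↔ t * t = 1 ∧ t ≠ 1 := by intro t; simp [B]
  have hBm : ∀ t ∈ B, {v : Ω | t • v = v}.ncard = m := by
    intro t ht
    rw [hB] at ht
    obtain ⟨x, y, hxy, hx, hy⟩ := htwo t ht.1 ht.2
    obtain ⟨g, hgx, hgy⟩ := hE x y hxy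
    have h1 := huniq hxy hx hy hgx hgy ht.1 (conj_sq ht₀) ht.2 (conj_ne_one ht₀1)
    rw [h1, ncard_fix_conj, hm]
  have hc1 : ∀ x y : Ω, x ≠ y → (B.filter fun t => t • x = x ∧ t • y = y).card = 1 := by
    intro x y hxy
    obtain ⟨g, hgx, hgy⟩ := hE x y hxy
    rw [Finset.card_eq_one]
    refine ⟨g * t₀ * g⁻¹, ?_⟩
    ext t
    rw [Finset.mem_filter, hB, Finset.mem_singleton]
    constructor
    · rintro ⟨⟨h1, h3⟩, h4, h5⟩
      exact huniq hxy h4 h5 hgx hgy h1 (conj_sq ht₀) h3 (conj_ne_one ht₀1)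
    · rintro rfl
      exact ⟨⟨conj_sq ht₀, conj_ne_one ht₀1⟩, hgx, hgy⟩
  have e1 := count_fix B m 1 hBm hc1
  have e2 := count_fix_one B x₀ m (fun t ht _ => hBm t ht) (fun y hy => hc1 x₀ y (Ne.symm hy))
  have e3 := count_move B m (Nat.card ↥(stabilizer G x₀ ⊓ stabilizer G y₀)) hBm (by
    intro x y hxy
    have hcard : Nat.card ↥(stabilizer G x ⊓ stabilizer G y) =
        Nat.card ↥(stabilizer G x₀ ⊓ stabilizer G y₀) := by
      have h1 := card_stab h2 hΩ hxy.symm
      have h3 := card_stab h2 hΩ hxy₀.symm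
      have hpt : IsPretransitive G Ω := by
        refine ⟨fun a b => ?_⟩
        by_cases hab : a = b
        · exact ⟨1, by rw [one_smul, hab]⟩
        · obtain ⟨g, hg, _⟩ := h2 a b b a hab (Ne.symm hab)
          exact ⟨g, hg⟩
      have h4 := Subgroup.card_mul_index (stabilizer G x)
      have h5 := Subgroup.card_mul_index (stabilizer G x₀)
      rw [index_stabilizer_of_transitive, hΩ] at h4 h5
      have h6 : Nat.card (stabilizer G x) = Nat.card (stabilizer G x₀) :=
        Nat.eq_of_mul_eq_mul_right (by omega) (h4.trans h5.symm)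
      rw [h1, h3] at h6
      exact Nat.eq_of_mul_eq_mul_left (pow_pos hp.out.pos 2) h6
    rw [← hcard]
    by_cases hne : (B.filter fun t => t • x = y).Nonempty
    · obtain ⟨s, hs⟩ := hne
      rw [Finset.mem_filter, hB] at hs
      have hsy : s • y = x := by rw [← hs.2, ← mul_smul, hs.1.1, one_smul]
      have h1 : (B.filter fun t => t • x = y).card ≤
          ((Finset.univ : Finset ↥(stabilizer G x ⊓ stabilizer G y)).image
            (fun h : ↥(stabilizer G x ⊓ stabilizer G y) => s * (h : G))).card := by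
        apply Finset.card_le_card
        intro t ht
        rw [Finset.mem_filter, hB] at ht
        have hty : t • y = x := by rw [← ht.2, ← mul_smul, ht.1.1, one_smul]
        rw [Finset.mem_image]
        refine ⟨⟨s⁻¹ * t, Subgroup.mem_inf.mpr ⟨?_, ?_⟩⟩, Finset.mem_univ _, ?_⟩
        · show (s⁻¹ * t) • x = x
          rw [mul_smul, ht.2, inv_smul_eq_iff, hs.2]
        · show (s⁻¹ * t) • y = y
          rw [mul_smul, hty, inv_smul_eq_iff, hsy]
        · show s * (s⁻¹ * t) = t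
          group
      refine h1.trans (Finset.card_image_le.trans ?_)
      rw [Finset.card_univ, Nat.card_eq_fintype_card]
    · rw [Finset.not_nonempty_iff_eq_empty.mp hne, Finset.card_empty]
      exact Nat.zero_le _)
  have e4 := S.two_mul_card_le h2 hΩ Fr hA hp3 hII hxy₀
  have hp0 := hp.out.pos
  have hn : Nat.card Ω - 1 = p ^ 2 := by rw [hΩ]; omega
  have hnn : Nat.card Ω * Nat.card Ω - Nat.card Ω = (p ^ 2 + 1) * p ^ 2 := by
    rw [hΩ]
    have : (p ^ 2 + 1) * (p ^ 2 + 1) = (p ^ 2 + 1) * p ^ 2 + (p ^ 2 + 1) := by ring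
    omega
  rw [hn] at e2
  rw [hnn] at e1 e3
  have hdvd : m - 1 ∣ p ^ 2 := ⟨_, by rw [mul_comm]; exact e2.symm⟩
  obtain ⟨k, hk, hk'⟩ := (Nat.dvd_prime_pow hp.out).mp hdvd
  have hm2 : m % 4 = 2 := by rw [hm]; exact hinv t₀ ht₀ ht₀1
  have hm1 : m = p ^ k + 1 := by omega
  have hNpos : 0 < B.card := Finset.card_pos.mpr ⟨t₀, (hB t₀).mpr ⟨ht₀, ht₀1⟩⟩
  interval_cases k
  · -- two fixed points
    rw [pow_zero] at hm1
    have hm3 : m = 2 := by omega
    rw [hm3] at e1 e3
    have e5 : B.card * 2 = (p ^ 2 + 1) * p ^ 2 := by simpa using e1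
    rw [hΩ, ← e5] at e3
    obtain ⟨r, hr⟩ : ∃ r, p = r + 1 := ⟨p - 1, by omega⟩
    have e6 : B.card * (p ^ 2 + 1 - 2) ≤ B.card * ((p - 1) * (p - 1)) := by
      calc B.card * (p ^ 2 + 1 - 2) ≤ B.card * 2 * Nat.card ↥(stabilizer G x₀ ⊓ stabilizer G y₀) := e3
        _ = B.card * (2 * Nat.card ↥(stabilizer G x₀ ⊓ stabilizer G y₀)) := by ring
        _ ≤ B.card * ((p - 1) * (p - 1)) := Nat.mul_le_mul_left _ e4
    have e7 := Nat.le_of_mul_le_mul_left e6 hNpos
    rw [hr] at e7
    have e8 : (r + 1) ^ 2 + 1 - 2 = r * r + 2 * r := by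
      have : (r + 1) ^ 2 = r * r + 2 * r + 1 := by ring
      omega
    rw [e8, Nat.add_sub_cancel] at e7
    omega
  · -- `p + 1` fixed points
    rw [pow_one] at hm1
    rw [hm1] at e1
    have h3 : (p + 1) * (p + 1) - (p + 1) = (p + 1) * p := by
      have : (p + 1) * (p + 1) = (p + 1) * p + (p + 1) := by ring
      omega
    rw [h3, mul_one] at e1
    have h5 : B.card * (p + 1) = p * (p ^ 2 + 1) := by
      apply Nat.eq_of_mul_eq_mul_right hp.out.pos
      calc B.card * (p + 1) * p = B.card * ((p + 1) * p) := by ring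
        _ = (p ^ 2 + 1) * p ^ 2 := e1
        _ = p * (p ^ 2 + 1) * p := by ring
    have h6 : (p + 1) ∣ p * (p ^ 2 + 1) := ⟨B.card, by rw [← h5]; ring⟩
    have h7 : (p + 1) ∣ p * (p ^ 2 + 1) + 2 := by
      refine ⟨p ^ 2 + 2 - p, ?_⟩
      have h8 : p ≤ p ^ 2 + 2 := by nlinarith
      zify [h8]
      ring
    have h8 : (p + 1) ∣ 2 := (Nat.dvd_add_right h6).mp h7
    have h9 := Nat.le_of_dvd (by norm_num) h8
    omega
  · -- all points are fixed
    apply ht₀1
    apply FaithfulSMul.eq_of_smul_eq_smul (α := Ω)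
    intro v
    rw [one_smul]
    have h1 : {v : Ω | t₀ • v = v} = Set.univ := by
      apply Set.eq_of_subset_of_ncard_le (Set.subset_univ _)
      rw [Set.ncard_univ, hΩ, ← hm, hm1]
    have h3 : v ∈ {v : Ω | t₀ • v = v} := by rw [h1]; trivial
    exact h3

/-- The affine case is impossible. -/
theorem Sys.false_of_affine [Nonempty Ω] : False := by
  by_cases hI : ∃ x y : Ω, x ≠ y ∧ ∃ t ∈ S.C x, t • y = y ∧ t * t = 1 ∧ t ≠ 1
  · obtain ⟨x, y, hxy, t, htC, hty, ht, ht1⟩ := hI
    exact S.caseI h2 hΩ Fr hA hp3 hinv hxy htC hty ht ht1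
  · apply S.caseII h2 hΩ Fr hA hp3 hinv
    intro x y hxy t htC hty ht
    by_contra ht1
    exact hI ⟨x, y, hxy, t, htC, hty, ht, ht1⟩

end

end Cfsg.Agent.Lib.AtkSys
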