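import Mathlib

set_option autoImplicit false

/-! Small computations in the alternating group of degree 6 (helper42). -/

namespace Cfsg.Agent.Lib.AutA6

open Equiv

/-- the involution `(0 1)(2 3)` -/
def τ₀ : Perm (Fin 6) := swap 0 1 * swap 2 3

theorem centralizer_card : (Finset.univ.filter (fun σ : Perm (Fin 6) =>
    σ * τ₀ = τ₀ * σ ∧ Perm.sign σ = 1)).card = 8 := by decide +kernel

theorem pair_card : ∀ b3 b5 : Bool, (Finset.univ.filter (fun σ : Perm (Fin 6) =>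
    σ * σ = 1 ∧ Perm.sign σ = 1 ∧ σ ≠ 1 ∧ decide ((τ₀ * σ) ^ 3 = 1) = b3 ∧ decide ((τ₀ * σ) ^ 5 = 1) = b5)).card ≤ 31 := by
  decide +kernel

theorem conj_tau : ∀ σ : Perm (Fin 6), σ * σ = 1 → Perm.sign σ = 1 → σ ≠ 1 → ∃ π : Perm (Fin 6), π * σ = τ₀ * π := by
  decide +kernel

end Cfsg.Agent.Lib.AutA6
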