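import Cfsg.Prelude.Def_ConjugacyFunctors
import Cfsg.Prelude.Def_ClassificationStages
import Cfsg.Agent.Lib.Transfer
import Cfsg.Agent.Lib.PNilp
import Cfsg.Agent.Lib.CompRel
import Cfsg.Agent.Lib.H34Basic
import Cfsg.Agent.Lib.Alperin
import Cfsg.Agent.Lib.SubgroupTools
import Cfsg.Agent.Lib.CoprimeAction
import Cfsg.Agent.Lib.Fitting

/-!
# Sections of a group as a relation, and Thompson's normal `p`-complement criterion (helper34)
-/

set_option autoImplicit false
set_option linter.unusedSectionVars false

namespace Cfsg.Agent.Lib.H34Sections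

open Cfsg Subgroup Cfsg.Agent.Lib.PNilp Cfsg.Agent.Lib.Transfer

universe u

/-- `X` is (isomorphic to) a section of `G`. -/
def SecOf (G X : Type u) [Group G] [Group X] : Prop :=
  ∃ (K : Subgroup G) (f : ↥K →* X), Function.Surjective f

section
variable {G X Y : Type u} [Group G] [Group X] [Group Y]

theorem SecOf.refl (G : Type u) [Group G] : SecOf G G :=
  ⟨⊤, (Subgroup.topEquiv : ↥(⊤ : Subgroup G) ≃* G), (Subgroup.topEquiv : ↥(⊤ : Subgroup G) ≃* G).surjective⟩

theorem SecOf.trans (h1 : SecOf G X) (h2 : SecOf X Y) : SecOf G Y := by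
  obtain ⟨K, f, hf⟩ := h1
  obtain ⟨L, g, hg⟩ := h2
  let e := ((L.comap f).equivMapOfInjective K.subtype K.subtype_injective).symm
  have hs : Function.Surjective (f.subgroupComap L) := by
    rintro ⟨l, hl⟩
    obtain ⟨k, rfl⟩ := hf l
    exact ⟨⟨k, hl⟩, rfl⟩
  refine ⟨(L.comap f).map K.subtype, g.comp ((f.subgroupComap L).comp (e : _ →* _)), ?_⟩
  intro y
  obtain ⟨l, rfl⟩ := hg y
  obtain ⟨k, rfl⟩ := hs l
  obtain ⟨m, rfl⟩ := e.surjective k
  exact ⟨m, rfl⟩

theorem SecOf.finite [Finite G] (h : SecOf G X) : Finite X := by
  obtain ⟨K, f, hf⟩ := h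
  exact Finite.of_surjective f hf

theorem SecOf.of_subgroup (H : Subgroup G) : SecOf G ↥H :=
  ⟨H, MonoidHom.id _, Function.surjective_id⟩

theorem SecOf.of_surjective (f : G →* X) (hf : Function.Surjective f) : SecOf G X :=
  ⟨⊤, f.comp (Subgroup.topEquiv : ↥(⊤ : Subgroup G) ≃* G),
    hf.comp (Subgroup.topEquiv : ↥(⊤ : Subgroup G) ≃* G).surjective⟩

/-- A property of all the sections `K / R` of `G`, invariant under isomorphism, holds for all `X` with `SecOf G X`. -/
theorem sec_property {Pr : ∀ (X : Type u) [Group X], Prop}
    (hiso : ∀ (X Y : Type u) [Group X] [Group Y], (X ≃* Y) → Pr X → Pr Y)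
    (h : ∀ (K R : Subgroup G) [_hR : (R.subgroupOf K).Normal], Pr (↥K ⧸ R.subgroupOf K))
    (hX : SecOf G X) : Pr X := by
  obtain ⟨K, f, hf⟩ := hX
  have h1 : (f.ker.map K.subtype).subgroupOf K = f.ker := by
    rw [subgroupOf, Subgroup.comap_map_eq_self_of_injective K.subtype_injective]
  have hn : ((f.ker.map K.subtype).subgroupOf K).Normal := by rw [h1]; infer_instance
  refine hiso _ _ ?_ (h K (f.ker.map K.subtype))
  exact (QuotientGroup.quotientMulEquivOfEq h1).trans
    (QuotientGroup.quotientKerEquivOfSurjective f hf)

end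

/-! ### Functors -/

section Functor

variable {p : ℕ} {W : ∀ (Q : Type u) [Group Q], Subgroup Q}

theorem inducedFunctor_le {G : Type u} [Group G] (Q : Subgroup G) : inducedFunctor W Q ≤ Q :=
  map_subtype_le _

/-- The functor commutes with homomorphisms that are injective on `Q`. -/
theorem map_inducedFunctor (hW : IsCharPFunctor.{u} p W) {G H : Type u} [Group G] [Group H]
    (f : G →* H) (Q : Subgroup G) [Finite ↥Q] (hQ : IsPGroup p ↥Q) (hinj : Disjoint Q f.ker) :
    (inducedFunctor W Q).map f = inducedFunctor W (Q.map f) := by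
  have hi : Function.Injective (f.subgroupMap Q) := by
    rw [injective_iff_map_eq_one]
    intro x hx
    have h1 : f x = 1 := congrArg Subtype.val hx
    have h2 : (x : G) ∈ Q ⊓ f.ker := ⟨x.2, h1⟩
    rw [disjoint_iff.mp hinj, mem_bot] at h2
    exact Subtype.ext h2
  let e : ↥Q ≃* ↥(Q.map f) := MulEquiv.ofBijective (f.subgroupMap Q)
    ⟨hi, f.subgroupMap_surjective Q⟩
  have h1 := hW.2 ↥Q ↥(Q.map f) hQ e
  unfold inducedFunctor
  rw [← h1, Subgroup.map_map, Subgroup.map_map]
  rfl

theorem map_inducedFunctor_of_injective (hW : IsCharPFunctor.{u} p W) {G H : Type u} [Group G]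
    [Group H] (f : G →* H) (hf : Function.Injective f) (Q : Subgroup G) [Finite ↥Q]
    (hQ : IsPGroup p ↥Q) :
    (inducedFunctor W Q).map f = inducedFunctor W (Q.map f) :=
  map_inducedFunctor hW f Q hQ (by rw [(MonoidHom.ker_eq_bot_iff f).mpr hf]; exact disjoint_bot_right)

/-- `W Q` is normalized by whatever normalizes `Q`. -/
theorem normalizer_le_normalizer_inducedFunctor (hW : IsCharPFunctor.{u} p W) {G : Type u}
    [Group G] (Q : Subgroup G) [Finite ↥Q] (hQ : IsPGroup p ↥Q) :
    normalizer (Q : Set G) ≤ normalizer (inducedFunctor W Q : Set G) := by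
  intro g hg
  apply CompRel.mem_normalizer_of_map_conj
  rw [map_inducedFunctor_of_injective hW (MulAut.conj g).toMonoidHom (MulAut.conj g).injective Q hQ,
    CompRel.map_conj_of_mem_normalizer hg]

theorem inducedFunctor_ne_bot (hW : IsCharPFunctor.{u} p W) {G : Type u}
    [Group G] (Q : Subgroup G) [Finite ↥Q] (hQ : IsPGroup p ↥Q) (hne : Q ≠ ⊥) :
    inducedFunctor W Q ≠ ⊥ := by
  intro h
  unfold inducedFunctor at h
  rw [Subgroup.map_eq_bot_iff_of_injective _ Q.subtype_injective] at h
  exact hW.1 ↥Q hQ ((Subgroup.nontrivial_iff_ne_bot Q).mpr hne) h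

end Functor

/-! ### normalizers and `p'`-quotients -/

open scoped Pointwise in
theorem map_normalizer_of_coprime {G H : Type*} [Group G] [Group H] [Finite G] {p : ℕ}
    [hp : Fact p.Prime] (f : G →* H) (hf : Function.Surjective f) (A : Subgroup G)
    (hA : IsPGroup p ↥A) (hk : (Nat.card ↥f.ker).Coprime p) :
    (normalizer (A : Set G)).map f = normalizer ((A.map f : Subgroup H) : Set H) := by
  apply le_antisymm (le_normalizer_map f)
  intro y hy
  obtain ⟨g, rfl⟩ := hf y
  have hsup : (A.map f).comap f = A ⊔ f.ker := Subgroup.comap_map_eq f A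
  have hgA : MulAut.conj g • A ≤ A ⊔ f.ker := by
    rw [← hsup]
    intro x hx
    rw [Subgroup.mem_pointwise_smul_iff_inv_smul_mem, ← map_inv, MulAut.smul_def,
      MulAut.conj_apply, inv_inv] at hx
    rw [mem_comap]
    have h1 := (mem_normalizer_iff.mp hy (f (g⁻¹ * x * g))).mp (mem_map_of_mem f hx)
    simpa [mul_assoc] using h1
  have hidx : ∀ B : Subgroup G, B ≤ A ⊔ f.ker → IsPGroup p ↥B → Nat.card ↥B = Nat.card ↥A →
      ¬ p ∣ B.relIndex (A ⊔ f.ker) := by
    intro B hB _ hcard hdvd
    have h1 := SubgroupTools.card_mul_relIndex_of_le hB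
    have h2 : Nat.card ↥(A ⊔ f.ker : Subgroup G) ∣ Nat.card ↥A * Nat.card ↥f.ker := by
      have := SubgroupTools.card_sup_mul_card_inf (G := G) (N := f.ker) (H := A)
        le_normalizer_of_normal
      rw [sup_comm, mul_comm (Nat.card ↥A), ← this]
      exact Dvd.intro _ rfl
    rw [← h1, hcard] at h2
    have h3 := Nat.dvd_of_mul_dvd_mul_left Nat.card_pos h2
    exact (hp.out.coprime_iff_not_dvd).mp hk.symm (hdvd.trans h3)
  obtain ⟨z, hz, hzA⟩ := Alperin.exists_conj (p := p) (A ⊔ f.ker) (MulAut.conj g • A) A hgA
    le_sup_left (hA.map _) hA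
    (hidx _ hgA (hA.map _) (Alperin.card_smul g A)) (hidx _ le_sup_left hA rfl)
  have hn : z⁻¹ * g ∈ normalizer (A : Set G) := by
    apply Alperin.mem_normalizer_of_conj_smul_eq
    rw [map_mul, mul_smul]
    exact hzA
  have hfz : f z ∈ (normalizer (A : Set G)).map f := by
    have : f z ∈ A.map f := by
      have h1 : z ∈ (A.map f).comap f := by rw [hsup]; exact hz
      exact h1
    exact Subgroup.map_mono le_normalizer this
  have := mul_mem hfz (mem_map_of_mem f hn)
  rw [map_mul, map_inv] at this
  simpa using this

/-! ### `p`-constraint from a normal `p`-complement modulo `O_p` -/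

theorem isPGroup_pCore {G : Type*} [Group G] [Finite G] (p : ℕ) [Fact p.Prime] :
    IsPGroup p ↥(pCore p G) := H34Basic.isPGroup_pCore p

theorem centralizer_pCore_le_of_npc {G : Type*} [Group G] [Finite G] {p : ℕ} [hp : Fact p.Prime]
    (h1 : pPrimeCore p G = ⊥) (h2 : HasNormalPComplement p (G ⧸ pCore p G)) :
    centralizer ((pCore p G : Subgroup G) : Set G) ≤ pCore p G := by
  obtain ⟨M, hM, hMp, k, hk⟩ := hasNormalPComplement_iff.mp h2
  set O := pCore p G with hO
  set π := QuotientGroup.mk' O with hπ
  have hπs : Function.Surjective π := QuotientGroup.mk'_surjective _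
  set K := M.comap π with hK
  have hKn : K.Normal := hM.comap π
  have hOp : IsPGroup p ↥O := isPGroup_pCore p
  set C := centralizer (O : Set G) with hC
  have hCn : C.Normal := by rw [hC]; infer_instance
  set D := C ⊓ K with hD
  have hDn : D.Normal := by rw [hD]; infer_instance
  -- `D ∩ O` is a central Sylow subgroup of `D`
  have hcentral : (O.subgroupOf D) ≤ center ↥D := by
    intro x hx
    rw [mem_center_iff]
    intro y
    ext
    have hy : (y : G) ∈ C := y.2.1
    exact (mem_centralizer_iff.mp hy x (mem_subgroupOf.mp hx)).symm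
  have hpg : IsPGroup p ↥(O.subgroupOf D) := hOp.comap_subtype
  have hidx : ¬ p ∣ (O.subgroupOf D).index := by
    intro h
    have h3 : O.relIndex D ∣ Nat.card ↥M := by
      have h4 : O.relIndex D = Nat.card ↥(D.map π) := by
        have h5 := SubgroupTools.card_map_mul_card_inf_ker π D
        have h6 := SubgroupTools.card_mul_relIndex O D
        have h7 : π.ker = O := QuotientGroup.ker_mk' _
        rw [h7, inf_comm D O] at h5
        have h8 : Nat.card ↥(O ⊓ D : Subgroup G) * O.relIndex D =
            Nat.card ↥(O ⊓ D : Subgroup G) * Nat.card ↥(D.map π) := by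
          rw [mul_comm _ (Nat.card ↥(D.map π)), h5, ← h6]
        exact Nat.eq_of_mul_eq_mul_left Nat.card_pos h8
      rw [h4]
      apply card_dvd_of_le
      rw [map_le_iff_le_comap]
      exact inf_le_right
    exact hMp (h.trans h3)
  let Q : Sylow p ↥D := hpg.toSylow hidx
  obtain ⟨L, hLn, hLc, hLp, hLmem⟩ := H34Basic.exists_compl_of_central_sylow Q hcentral
  -- `L` is normal in `G`
  have hLG : (L.map D.subtype).Normal := by
    constructor
    rintro _ ⟨x, hx, rfl⟩ g
    have hxg : g * (x : G) * g⁻¹ ∈ D := hDn.conj_mem _ x.2 g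
    refine ⟨⟨_, hxg⟩, ?_, rfl⟩
    rw [SetLike.mem_coe, hLmem] at hx ⊢
    rw [Subgroup.orderOf_mk]
    have : orderOf (g * (x : G) * g⁻¹) = orderOf (x : G) :=
      orderOf_injective (MulAut.conj g).toMonoidHom (MulAut.conj g).injective (x : G)
    rw [this, Subgroup.orderOf_coe]
    exact hx
  have hL1 : L = ⊥ := by
    have : L.map D.subtype ≤ pPrimeCore p G := by
      apply H23Basic.le_pPrimeCore hLG
      rw [Subgroup.card_map_of_injective D.subtype_injective]
      exact hLp
    rw [h1, le_bot_iff, Subgroup.map_eq_bot_iff_of_injective _ D.subtype_injective] at this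
    exact this
  have hQt : (Q : Subgroup ↥D) = ⊤ := by
    rw [hL1] at hLc
    exact isComplement'_bot_left.mp hLc
  have hDp : IsPGroup p ↥D := by
    have : IsPGroup p ↥(⊤ : Subgroup ↥D) := by
      rw [← hQt]; exact Q.2
    exact this.of_equiv Subgroup.topEquiv
  -- `C / D` is a `p`-group
  have hCp : IsPGroup p ↥C := by
    have hGK : ∀ x : G, ∃ m : ℕ, x ^ p ^ m ∈ K := by
      intro x
      refine ⟨k, ?_⟩
      rw [hK, mem_comap, map_pow, ← hk]
      exact M.pow_index_mem _
    intro x
    obtain ⟨m, hm⟩ := hGK x
    have hxD : (x : G) ^ p ^ m ∈ D := ⟨pow_mem x.2 _, hm⟩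
    obtain ⟨l, hl⟩ := hDp ⟨_, hxD⟩
    refine ⟨m + l, ?_⟩
    ext
    have := congrArg Subtype.val hl
    simpa [pow_add, pow_mul] using this
  exact H23Basic.le_pCore hCn hCp

/-! ### Thompson's criterion -/

section Thompson

variable {p : ℕ} [hp : Fact p.Prime] {W : ∀ (Q : Type u) [Group Q], Subgroup Q}

/-- The local condition in the criterion. -/
def LocCond (p : ℕ) (W : ∀ (Q : Type u) [Group Q], Subgroup Q) (X : Type u) [Group X] : Prop :=
  Finite X → centralizer ((pCore p X : Subgroup X) : Set X) ≤ pCore p X →
    HasNormalPComplement p (X ⧸ pCore p X) →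
    ∀ T : Sylow p X, IsCoatom (T : Subgroup X) → (inducedFunctor W (T : Subgroup X)).Normal

theorem locCond_iso (hW : IsCharPFunctor.{u} p W) (X Y : Type u) [Group X] [Group Y] (e : X ≃* Y)
    (h : LocCond p W X) : LocCond p W Y := by
  intro hfin hc hn T hT
  have hfX : Finite X := Finite.of_equiv Y e.symm.toEquiv
  have hcore : (pCore p X).map (e : X →* Y) = pCore p Y := H23Basic.pCore_map p e
  have hc' : centralizer ((pCore p X : Subgroup X) : Set X) ≤ pCore p X := by
    have h1 := H23Basic.centralizer_map e (pCore p X)
    rw [hcore] at h1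
    rw [← Subgroup.map_le_map_iff_of_injective (f := (e : X →* Y)) e.injective, h1, hcore]
    exact hc
  have hn' : HasNormalPComplement p (X ⧸ pCore p X) :=
    HasNormalPComplement.of_mulEquiv hn
      (QuotientGroup.congr (pCore p X) (pCore p Y) e hcore).symm
  let T' : Sylow p X := T.mapSurjective (f := (e.symm : Y →* X)) e.symm.surjective
  have hT'coe : (T' : Subgroup X) = (T : Subgroup Y).map (e.symm : Y →* X) := rfl
  have hT' : IsCoatom (T' : Subgroup X) := by
    rw [hT'coe]
    exact (OrderIso.isCoatom_iff (e.symm.mapSubgroup) (T : Subgroup Y)).mpr hT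
  have h2 := h hfX hc' hn' T' hT'
  have h3 : (inducedFunctor W (T' : Subgroup X)).map (e : X →* Y) =
      inducedFunctor W ((T' : Subgroup X).map (e : X →* Y)) :=
    map_inducedFunctor_of_injective hW (e : X →* Y) e.injective _ T'.2
  have h4 : (T' : Subgroup X).map (e : X →* Y) = (T : Subgroup Y) := by
    rw [hT'coe, Subgroup.map_map]
    ext y
    simp
  rw [h4] at h3
  rw [← h3]
  exact h2.map _ e.surjective

theorem npc_normalizer_map {G H : Type*} [Group G] [Group H] [Finite G] [Finite H]
    {f : G →* H} (hf : Function.Injective f) (A : Subgroup G)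
    (h : HasNormalPComplement p ↥(normalizer ((A.map f : Subgroup H) : Set H))) :
    HasNormalPComplement p ↥(normalizer (A : Set G)) := by
  have h1 := HasNormalPComplement.mono (le_normalizer_map f (H := A)) h
  exact HasNormalPComplement.of_mulEquiv h1 ((normalizer (A : Set G)).equivMapOfInjective f hf).symm

open scoped Pointwise in
theorem thompson (hW : IsCharPFunctor.{u} p W) (n : ℕ) : ∀ (G : Type u) [Group G] [Finite G],
    Nat.card G ≤ n → (∀ (X : Type u) [Group X], SecOf G X → LocCond p W X) →
    ∀ S : Sylow p G, HasNormalPComplement p ↥(normalizer (inducedFunctor W (S : Subgroup G) : Set G)) →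
    HasNormalPComplement p G := by
  induction n with
  | zero =>
    intro G _ _ hn
    have := Nat.card_pos (α := G)
    omega
  | succ n ih =>
    intro G _ _ hn hsec S hS
    by_contra hcon
    -- all Sylow subgroups
    have hSall : ∀ T : Sylow p G,
        HasNormalPComplement p ↥(normalizer (inducedFunctor W (T : Subgroup G) : Set G)) := by
      intro T
      obtain ⟨g, hg⟩ := MulAction.exists_smul_eq G T S
      have h1 : (inducedFunctor W (T : Subgroup G)).map (MulAut.conj g).toMonoidHom =
          inducedFunctor W (S : Subgroup G) := by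
        rw [map_inducedFunctor_of_injective hW _ (MulAut.conj g).injective _ T.2, ← hg]
        rfl
      rw [← h1] at hS
      exact npc_normalizer_map (MulAut.conj g).injective _ hS
    -- induction for subgroups
    have ihsub : ∀ M T : Subgroup G, M ≠ ⊤ → T ≤ M → IsPGroup p ↥T → ¬ p ∣ T.relIndex M →
        HasNormalPComplement p ↥(normalizer (inducedFunctor W T : Set G)) →
        HasNormalPComplement p ↥M := by
      intro M T hM hTM hTp hTi hT
      have hT'p : IsPGroup p ↥(T.subgroupOf M) := hTp.comap_subtype
      let T' : Sylow p ↥M := hT'p.toSylow hTi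
      have hlt : Nat.card ↥M ≤ n := by
        have h1 := Components.card_lt_of_lt_top (lt_top_iff_ne_top.mpr hM)
        omega
      refine ih ↥M hlt (fun X _ hX => hsec X ((SecOf.of_subgroup M).trans hX)) T' ?_
      apply npc_normalizer_map M.subtype_injective
      rw [map_inducedFunctor_of_injective hW _ M.subtype_injective _ T'.2]
      have h2 : (T' : Subgroup ↥M).map M.subtype = T := map_subgroupOf_eq_of_le hTM
      rw [h2]; exact hT
    -- the family of bad subgroups
    let v : Subgroup G → ℕ := fun H => (Nat.card ↥(normalizer (H : Set G))).factorization p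
    let F : Set (Subgroup G) := {H | IsPGroup p ↥H ∧ H ≠ ⊥ ∧
      ¬ HasNormalPComplement p ↥(normalizer (H : Set G))}
    have hFne : F.Nonempty := by
      by_contra hemp
      apply hcon
      rw [hasNormalPComplement_iff_normalizers]
      intro Q hQ hQ1
      by_contra h
      exact hemp ⟨Q, hQ, hQ1, h⟩
    obtain ⟨H, hHF, hHmax⟩ := Set.Finite.exists_maximalFor
      (fun H : Subgroup G => v H * (Nat.card G + 1) + Nat.card ↥H) F (Set.toFinite _) hFne
    have hcardle : ∀ A : Subgroup G, Nat.card ↥A ≤ Nat.card G := fun A => Subgroup.card_le_card_group A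
    have hmax : ∀ A ∈ F, v A * (Nat.card G + 1) + Nat.card ↥A ≤
        v H * (Nat.card G + 1) + Nat.card ↥H := by
      intro A hA
      by_contra hlt
      rw [not_le] at hlt
      have := hHmax hA hlt.le
      exact absurd this (not_le_of_gt hlt)
    have hmax1 : ∀ A ∈ F, v A ≤ v H := by
      intro A hA
      by_contra hlt
      rw [not_le] at hlt
      have h1 := hmax A hA
      have h2 := hcardle H
      have h3 : (v H + 1) * (Nat.card G + 1) ≤ v A * (Nat.card G + 1) :=
        Nat.mul_le_mul_right _ hlt
      have h4 : (v H + 1) * (Nat.card G + 1) = v H * (Nat.card G + 1) + (Nat.card G + 1) := by ring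
      omega
    have hmax2 : ∀ A ∈ F, v H ≤ v A → Nat.card ↥A ≤ Nat.card ↥H := by
      intro A hA hle
      have h1 := hmax A hA
      have h2 : v A = v H := le_antisymm (hmax1 A hA) hle
      rw [h2] at h1
      omega
    obtain ⟨hHp, hH1, hHN⟩ := hHF
    -- `H` is normal
    have hHn : H.Normal := by
      rw [← normalizer_eq_top_iff]
      by_contra hM
      set M := normalizer (H : Set G) with hMd
      obtain ⟨T'⟩ : Nonempty (Sylow p ↥M) := inferInstance
      obtain ⟨hTM, hTp, hTi⟩ := CoprimeAction.sylow_map_subtype_props T'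
      set T := (T' : Subgroup ↥M).map M.subtype with hT
      obtain ⟨R, hTR⟩ := hTp.exists_le_sylow
      have hTcard : Nat.card ↥T = p ^ v H := by
        rw [hT, Subgroup.card_map_of_injective M.subtype_injective]
        exact T'.card_eq_multiplicity
      rcases hTR.eq_or_lt with hTReq | hTRlt
      · apply hHN
        apply ihsub M T hM hTM hTp hTi
        rw [hTReq]; exact hSall R
      · have hTne : T ≠ ⊥ := by
          intro hb
          apply hHN
          apply hasNormalPComplement_of_not_dvd
          rw [hb, relIndex_bot_left] at hTi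
          exact hTi
        have hlt := Alperin.lt_inf_normalizer (p := p) (R : Subgroup G) T R.2 hTRlt
        have hWT : IsPGroup p ↥(inducedFunctor W T) := hTp.to_le (inducedFunctor_le T)
        have hvlt : v H < v (inducedFunctor W T) := by
          have h1 : (R : Subgroup G) ⊓ normalizer (T : Set G) ≤
              normalizer (inducedFunctor W T : Set G) :=
            inf_le_right.trans (normalizer_le_normalizer_inducedFunctor hW T hTp)
          have h2 : IsPGroup p ↥((R : Subgroup G) ⊓ normalizer (T : Set G) : Subgroup G) :=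
            R.2.to_inf_left
          obtain ⟨m, hm⟩ := IsPGroup.iff_card.mp h2
          have h3 := Components.card_lt_of_lt hlt
          rw [hTcard, hm] at h3
          have h4 : v H < m := (Nat.pow_lt_pow_iff_right hp.out.one_lt).mp h3
          have h5 : p ^ m ∣ Nat.card ↥(normalizer (inducedFunctor W T : Set G)) := by
            rw [← hm]; exact card_dvd_of_le h1
          have h6 : m ≤ v (inducedFunctor W T) :=
            (hp.out.pow_dvd_iff_le_factorization Nat.card_pos.ne').mp h5
          exact lt_of_lt_of_le h4 h6
        have hWF : inducedFunctor W T ∉ F := fun h => absurd (hmax1 _ h) (not_le_of_gt hvlt)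
        have hnpc : HasNormalPComplement p ↥(normalizer (inducedFunctor W T : Set G)) := by
          by_contra h
          exact hWF ⟨hWT, inducedFunctor_ne_bot hW T hTp hTne, h⟩
        exact hHN (ihsub M T hM hTM hTp hTi hnpc)
    have hvtop : ∀ A : Subgroup G, A.Normal → v A = (Nat.card G).factorization p := by
      intro A hA
      have h1 : normalizer (A : Set G) = ⊤ := normalizer_eq_top_iff.mpr hA
      simp only [v]
      rw [h1, Subgroup.card_top]
    have hnottop : ∀ A : Subgroup G, A.Normal →
        ¬ HasNormalPComplement p ↥(normalizer (A : Set G)) := by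
      intro A hA h
      have h1 : normalizer (A : Set G) = ⊤ := normalizer_eq_top_iff.mpr hA
      rw [h1] at h
      exact hcon (HasNormalPComplement.of_mulEquiv h Subgroup.topEquiv)
    -- `H = O_p(G)`
    set O := pCore p G with hO
    have hOp : IsPGroup p ↥O := isPGroup_pCore p
    have hHO : H = O := by
      have h1 : H ≤ O := H23Basic.le_pCore hHn hHp
      apply Subgroup.eq_of_le_of_card_ge h1
      have hOn : O.Normal := inferInstance
      have hOF : O ∈ F := by
        refine ⟨hOp, ?_, hnottop O hOn⟩
        intro h
        rw [h, le_bot_iff] at h1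
        exact hH1 h1
      apply hmax2 O hOF
      rw [hvtop H hHn, hvtop O hOn]
    have hO1 : O ≠ ⊥ := hHO ▸ hH1
    -- `G / O` has a normal `p`-complement
    have hOS : O ≤ S := by
      obtain ⟨g, hg⟩ : ∃ R : Sylow p G, O ≤ R := hOp.exists_le_sylow
      obtain ⟨c, hc⟩ := MulAction.exists_smul_eq G g S
      rw [← hc]
      intro x hx
      have h1 : c⁻¹ * x * c ∈ O := by
        have := (inferInstance : O.Normal).conj_mem x hx c⁻¹
        simpa using this
      change x ∈ (MulAut.conj c • (g : Subgroup G) : Subgroup G)
      rw [SubgroupTools.mem_conj_smul]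
      exact hg h1
    have hquot : HasNormalPComplement p (G ⧸ O) := by
      set π := QuotientGroup.mk' O with hπ
      have hπs : Function.Surjective π := QuotientGroup.mk'_surjective _
      let Sb : Sylow p (G ⧸ O) := S.mapSurjective hπs
      have hSbc : (Sb : Subgroup (G ⧸ O)) = (S : Subgroup G).map π := rfl
      have hcard : Nat.card (G ⧸ O) ≤ n := by
        have h1 := Subgroup.card_eq_card_quotient_mul_card_subgroup O
        have h2 : 1 < Nat.card ↥O := (Subgroup.one_lt_card_iff_ne_bot O).mpr hO1
        have h3 : 0 < Nat.card (G ⧸ O) := Nat.card_pos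
        nlinarith
      by_cases hSb1 : (Sb : Subgroup (G ⧸ O)) = ⊥
      · apply hasNormalPComplement_of_not_dvd
        have := Sb.not_dvd_index
        rwa [hSb1, index_bot] at this
      · refine ih (G ⧸ O) hcard (fun X _ hX => hsec X ((SecOf.of_surjective π hπs).trans hX)) Sb ?_
        set Qb := inducedFunctor W (Sb : Subgroup (G ⧸ O)) with hQb
        have hQb1 : Qb ≠ ⊥ := inducedFunctor_ne_bot hW _ Sb.2 hSb1
        set Q := Qb.comap π with hQ
        have hQbp : IsPGroup p ↥Qb := Sb.2.to_le (inducedFunctor_le _)
        have hQS : Q ≤ S := by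
          have h1 : Q ≤ ((S : Subgroup G).map π).comap π :=
            Subgroup.comap_mono ((inducedFunctor_le _).trans hSbc.le)
          rw [Subgroup.comap_map_eq, hπ, QuotientGroup.ker_mk', sup_eq_left.mpr hOS] at h1
          exact h1
        have hQp : IsPGroup p ↥Q := S.2.to_le hQS
        have hOQ : O ≤ Q := by
          intro x hx
          rw [hQ, mem_comap]
          have : π x = 1 := by
            rw [hπ, QuotientGroup.mk'_apply, QuotientGroup.eq_one_iff]; exact hx
          rw [this]; exact one_mem _
        have hnormQ : (normalizer (Qb : Set (G ⧸ O))).comap π = normalizer (Q : Set G) :=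
          Subgroup.comap_normalizer_eq_of_surjective Qb hπs
        have hSQ : (S : Subgroup G) ≤ normalizer (Q : Set G) := by
          rw [← hnormQ, ← Subgroup.map_le_iff_le_comap, ← hSbc]
          exact le_normalizer.trans (normalizer_le_normalizer_inducedFunctor hW _ Sb.2)
        have hOQlt : Nat.card ↥O < Nat.card ↥Q := by
          apply Components.card_lt_of_lt
          refine lt_of_le_of_ne hOQ ?_
          intro h
          apply hQb1
          rw [← Subgroup.map_comap_eq_self_of_surjective hπs Qb, ← hQ, ← h,
            Subgroup.map_eq_bot_iff, hπ, QuotientGroup.ker_mk']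
        have hvQ : v H ≤ v Q := by
          rw [hvtop H hHn]
          have h1 : p ^ (Nat.card G).factorization p ∣ Nat.card ↥(normalizer (Q : Set G)) := by
            rw [← S.card_eq_multiplicity]
            exact card_dvd_of_le hSQ
          exact (hp.out.pow_dvd_iff_le_factorization Nat.card_pos.ne').mp h1
        have hQF : Q ∉ F := by
          intro h
          have h1 := hmax2 Q h hvQ
          rw [hHO] at h1
          omega
        have hnpc : HasNormalPComplement p ↥(normalizer (Q : Set G)) := by
          by_contra h
          refine hQF ⟨hQp, ?_, h⟩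
          intro hb
          rw [hb, le_bot_iff] at hOQ
          exact hO1 hOQ
        have h2 : (normalizer (Q : Set G)).map π = normalizer (Qb : Set (G ⧸ O)) := by
          rw [← hnormQ, Subgroup.map_comap_eq_self_of_surjective hπs]
        rw [← h2]
        exact HasNormalPComplement.of_surjective hnpc (π.subgroupMap _)
          (π.subgroupMap_surjective _)
    -- `O_{p'}(G) = 1`
    have hcore' : pPrimeCore p G = ⊥ := by
      by_contra hne
      set N := pPrimeCore p G with hN
      set π := QuotientGroup.mk' N with hπ
      have hπs : Function.Surjective π := QuotientGroup.mk'_surjective _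
      have hker : π.ker = N := QuotientGroup.ker_mk' _
      have hNc : (Nat.card ↥N).Coprime p := Fitting.coprime_card_pPrimeCore p
      have hcard : Nat.card (G ⧸ N) ≤ n := by
        have h1 := Subgroup.card_eq_card_quotient_mul_card_subgroup N
        have h2 : 1 < Nat.card ↥N := (Subgroup.one_lt_card_iff_ne_bot N).mpr hne
        have h3 : 0 < Nat.card (G ⧸ N) := Nat.card_pos
        nlinarith
      let Sb : Sylow p (G ⧸ N) := S.mapSurjective hπs
      have hSbc : (Sb : Subgroup (G ⧸ N)) = (S : Subgroup G).map π := rfl
      have hdisj : Disjoint (S : Subgroup G) π.ker := by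
        rw [hker, disjoint_iff]
        obtain ⟨m, hm⟩ := IsPGroup.iff_card.mp S.2
        apply SubgroupTools.inf_eq_bot_of_coprime'
        rw [hm]
        exact (Nat.Coprime.pow_right m hNc).symm
      have h1 : HasNormalPComplement p (G ⧸ N) := by
        refine ih (G ⧸ N) hcard (fun X _ hX => hsec X ((SecOf.of_surjective π hπs).trans hX)) Sb ?_
        rw [hSbc, ← map_inducedFunctor hW π (S : Subgroup G) S.2 hdisj,
          ← map_normalizer_of_coprime (p := p) π hπs _ (S.2.to_le (inducedFunctor_le _))
            (by rw [hker]; exact hNc)]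
        exact HasNormalPComplement.of_surjective hS (π.subgroupMap _)
          (π.subgroupMap_surjective _)
      apply hcon
      exact HasNormalPComplement.of_quotient N
        (fun h => (hp.out.coprime_iff_not_dvd).mp hNc.symm h) h1
    have hconstr := centralizer_pCore_le_of_npc hcore' hquot
    -- `S` is a maximal subgroup
    have hcoatom : IsCoatom (S : Subgroup G) := by
      constructor
      · intro htop
        apply hcon
        apply hasNormalPComplement_of_isPGroup
        have h1 := S.2
        rw [htop] at h1
        exact h1.of_equiv Subgroup.topEquiv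
      · intro M hSM
        by_contra hMt
        have hSi : ¬ p ∣ (S : Subgroup G).relIndex M := by
          intro h
          exact S.not_dvd_index (h.trans (Dvd.intro _ (relIndex_mul_index hSM.le)))
        have hM := ihsub M (S : Subgroup G) hMt hSM.le S.2 hSi hS
        obtain ⟨L, hLn, hLp, k, hk⟩ := hasNormalPComplement_iff.mp hM
        have hLO : L.map M.subtype ≤ O := by
          refine le_trans ?_ hconstr
          rw [Components.le_centralizer_iff_commutator]
          have hOM : O ≤ M := hOS.trans hSM.le
          have h1 : ⁅L, O.subgroupOf M⁆ = ⊥ := by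
            have h2 : ⁅L, O.subgroupOf M⁆ ≤ L ⊓ O.subgroupOf M := commutator_le_inf L _
            have h3 : L ⊓ O.subgroupOf M = ⊥ := by
              have h4 : IsPGroup p ↥(O.subgroupOf M) := hOp.comap_subtype
              obtain ⟨m, hm⟩ := IsPGroup.iff_card.mp h4
              apply SubgroupTools.inf_eq_bot_of_coprime'
              rw [hm]
              exact (Nat.Coprime.pow_left m ((hp.out.coprime_iff_not_dvd).mpr hLp)).symm
            rw [h3, le_bot_iff] at h2
            exact h2
          have h5 := congrArg (Subgroup.map M.subtype) h1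
          rw [map_commutator, map_subgroupOf_eq_of_le hOM, Subgroup.map_bot] at h5
          exact h5
        have hL1 : L = ⊥ := by
          have h1 : IsPGroup p ↥L := by
            have h2 : IsPGroup p ↥(L.map M.subtype) := hOp.to_le hLO
            exact h2.of_equiv (L.equivMapOfInjective M.subtype M.subtype_injective).symm
          obtain ⟨m, hm⟩ := IsPGroup.iff_card.mp h1
          rcases Nat.eq_zero_or_pos m with h3 | h3
          · rw [h3, pow_zero] at hm
            exact Subgroup.card_eq_one.mp hm
          · exfalso
            apply hLp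
            rw [hm]
            exact dvd_pow_self p h3.ne'
        have hMp : IsPGroup p ↥M := by
          apply IsPGroup.of_card (n := k)
          rw [← hk, hL1, index_bot]
        exact absurd (S.3 hMp hSM.le) hSM.ne'
    have hfin := hsec G (SecOf.refl G) inferInstance hconstr hquot S hcoatom
    exact hnottop _ hfin hS

end Thompson

end Cfsg.Agent.Lib.H34Sections
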