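import Cfsg.Agent.Lib.KS9Rep
import Cfsg.Agent.S0608

/-!
# Failure of Thompson factorization (Kurzweil-Stellmacher 9.3.8, 9.3.9) (helper30)
-/

set_option autoImplicit false
set_option linter.unusedSectionVars false

namespace Cfsg.Agent.Lib.KS9Fac

open Subgroup Cfsg.Agent.Lib.SubgroupTools Cfsg.Agent.Lib.KS9 Cfsg.Agent.Lib.KS9Rep
open scoped commutatorElement MatrixGroups

universe u

variable {K G : Type u} [Group K] [Finite K] [Group G] [Finite G] {p : ℕ} [hp : Fact p.Prime]

/-- the holomorph of `V` -/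
abbrev Hol (V : Subgroup G) : Type u := ↥V ⋊[MonoidHom.id (MulAut V)] MulAut V

instance finite_Hol (V : Subgroup G) : Finite (Hol V) := by
  have : Finite (MulAut V) := inferInstance
  exact Finite.of_equiv (↥V × MulAut V) SemidirectProduct.equivProd.symm

/-- the action of the normalizer of `V` -/
noncomputable def eta (V : Subgroup G) : ↥(normalizer (V : Set G)) →* Hol V :=
  (SemidirectProduct.inr : MulAut V →* Hol V).comp (normalizerMonoidHom V)

/-- `V` in the holomorph -/
noncomputable def VV (V : Subgroup G) : Subgroup (Hol V) := (SemidirectProduct.inl : V →* Hol V).range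

noncomputable def psi (V : Subgroup G) : V ≃* VV V := MonoidHom.ofInjective SemidirectProduct.inl_injective

theorem psi_val (V : Subgroup G) (v : V) : ((psi V v : VV V) : Hol V) = SemidirectProduct.inl v := rfl

theorem eta_conj (V : Subgroup G) (x : ↥(normalizer (V : Set G))) (v : V) :
    ((psi V ⟨x * v * (x : G)⁻¹, (mem_normalizer_iff.mp x.2 v).mp v.2⟩ : VV V) : Hol V) =
      eta V x * psi V v * (eta V x)⁻¹ := by
  rw [psi_val, psi_val]
  have h1 := SemidirectProduct.inl_aut (φ := MonoidHom.id (MulAut V)) (normalizerMonoidHom V x) v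
  rw [map_inv] at h1
  exact h1

theorem eta_eq_one_iff (V : Subgroup G) (x : ↥(normalizer (V : Set G))) :
    eta V x = 1 ↔ (x : G) ∈ centralizer (V : Set G) := by
  have h1 : eta V x = 1 ↔ normalizerMonoidHom V x = 1 := by
    constructor
    · intro h
      apply SemidirectProduct.inr_injective (φ := MonoidHom.id (MulAut V))
      rw [map_one]; exact h
    · intro h
      change SemidirectProduct.inr (normalizerMonoidHom V x) = 1
      rw [h, map_one]
  rw [h1, ← MonoidHom.mem_ker, normalizerMonoidHom_ker, mem_subgroupOf]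

/-- the representation of `K` in the holomorph of `V = j(V₀)` -/
theorem isRep {j : K →* G} (hj : Function.Injective j) (V₀ : Subgroup K) [V₀.Normal]
    (hn : ∀ k, j k ∈ normalizer ((V₀.map j : Subgroup G) : Set G)) :
    IsRep V₀ (VV (V₀.map j)) ((eta (V₀.map j)).comp (j.codRestrict _ hn))
      ((equivMapOfInjective V₀ j hj).trans (psi (V₀.map j))) := by
  refine ⟨fun k v => ?_, ?_⟩
  · rw [MulEquiv.trans_apply, MulEquiv.trans_apply]
    have h1 := eta_conj (V₀.map j) ⟨j k, hn k⟩ (equivMapOfInjective V₀ j hj v)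
    refine Eq.trans ?_ h1
    congr 2
    apply Subtype.ext
    simp
  · ext k
    rw [MonoidHom.mem_ker, MonoidHom.comp_apply, eta_eq_one_iff, mem_centralizer_iff, mem_centralizer_iff]
    constructor
    · intro h v hv
      have := h (j v) ⟨v, hv, rfl⟩
      apply hj
      rw [map_mul, map_mul]
      exact this
    · rintro h _ ⟨v, hv, rfl⟩
      change j v * j k = j k * j v
      rw [← map_mul, ← map_mul, h v hv]

theorem exists_rep (V : Subgroup G) [V.Normal] :
    ∃ (Γ : Type u) (_ : Group Γ) (_ : Finite Γ) (V' : Subgroup Γ) (θ : G →* Γ) (ψ : V ≃* V'), IsRep V V' θ ψ := by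
  have hn : ∀ k : G, MonoidHom.id G k ∈ normalizer ((V.map (MonoidHom.id G) : Subgroup G) : Set G) := by
    intro k
    rw [map_id, Subgroup.normalizer_eq_top]; trivial
  exact ⟨_, inferInstance, inferInstance, _, _, _, isRep (j := MonoidHom.id G) Function.injective_id V hn⟩

theorem quot_equiv {Γ : Type*} [Group Γ] {θ : G →* Γ} {C : Subgroup G} (hC : θ.ker = C) {E' : Subgroup Γ}
    (hE' : E' ≤ θ.range) : ∃ _ : (C.subgroupOf (E'.comap θ)).Normal,
      Nonempty ((↥(E'.comap θ) ⧸ C.subgroupOf (E'.comap θ)) ≃* E') := by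
  have hs : Function.Surjective (θ.subgroupComap E') := by
    rintro ⟨y, hy⟩
    obtain ⟨x, hx⟩ := hE' hy
    exact ⟨⟨x, by rw [mem_comap, hx]; exact hy⟩, Subtype.ext hx⟩
  have hk : (θ.subgroupComap E').ker = C.subgroupOf (E'.comap θ) := by
    ext x
    rw [MonoidHom.mem_ker, mem_subgroupOf, ← hC, MonoidHom.mem_ker]
    exact ⟨fun h => congrArg Subtype.val h, fun h => Subtype.ext h⟩
  have hn : (C.subgroupOf (E'.comap θ)).Normal := by rw [← hk]; infer_instance
  exact ⟨hn, ⟨(QuotientGroup.quotientMulEquivOfEq hk.symm).trans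
    (QuotientGroup.quotientKerEquivOfSurjective _ hs)⟩⟩

theorem thompson_characteristic : (Cfsg.thompsonSubgroup p G).Characteristic := by
  rw [characteristic_iff_map_le]
  intro φ
  unfold Cfsg.thompsonSubgroup
  rw [map_le_iff_le_comap]
  apply sSup_le
  intro A hA
  rw [← map_le_iff_le_comap]
  apply le_sSup
  refine ⟨ThompsonJ.elemAb_map _ hA.1, fun B hB => ?_⟩
  rw [card_map_of_injective φ.injective]
  exact hA.2 B hB

/-- K-S 9.3.8 -/
theorem s0618 (hsep : Cfsg.IsPSolvable p G) (hO : Cfsg.pPrimeCore p G = ⊥) (hnf : ¬ Cfsg.IsThompsonFactorizable p G)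
    {V : Subgroup G} (hVdef : V = ⨆ S : Sylow p G, Cfsg.omegaOne p ((S : Subgroup G) ⊓ centralizer ((S : Subgroup G) : Set G))) :
    (p = 2 ∨ p = 3) ∧ ∃ E : Subgroup G, centralizer (V : Set G) ≤ E ∧
      E ≤ Cfsg.thompsonSubgroup p G ⊔ centralizer (V : Set G) ∧
      Cfsg.thompsonSubgroup p G ⊔ centralizer (V : Set G) ≤ normalizer (E : Set G) ∧
      ∃ _ : ((centralizer (V : Set G)).subgroupOf E).Normal,
        Nonempty ((↥E ⧸ (centralizer (V : Set G)).subgroupOf E) ≃* SL(2, ZMod p)) := by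
  have hc := H32PSolv.centralizer_pCore_le hsep hO
  have hVn : V.Normal := by rw [hVdef]; exact OffenderGen.omegaV_normal
  have hV : Cfsg.IsElementaryAbelian p V := by rw [hVdef]; exact OffenderGen.omegaV_elemAb hc
  have hOp : Cfsg.pCore p (G ⧸ centralizer (V : Set G)) = ⊥ := by
    apply OffenderGen.pCore_quotient_eq_bot
    rw [hVdef]; exact OffenderGen.omegaV_gen
  have hJ : ¬ Cfsg.thompsonSubgroup p G ≤ centralizer (V : Set G) := by
    rw [hVdef]
    intro h
    exact hnf ((S0608.result hO).mpr h)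
  obtain ⟨Γ, _, _, V', θ, ψ, R⟩ := exists_rep V
  have hch := thompson_characteristic (p := p) (G := G)
  set J := Cfsg.thompsonSubgroup p G ⊔ centralizer (V : Set G) with hJdef
  have hJn : J.Normal := inferInstance
  have S := R.setting hV hsep hOp J
  have hgen := R.genOff hV
  obtain ⟨A, hAH, hA⟩ := exists_minOff S hgen (by
    intro h
    apply hJ
    rw [← R.ker, ← Subgroup.map_eq_bot_iff, eq_bot_iff, ← h]
    exact map_mono le_sup_left)
  have P := isPlane S hAH hA
  set Q := (Cfsg.pPrimeCore p ↥(J.map θ)).map (J.map θ).subtype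
  refine ⟨P.p23, (EA Q A).comap θ, ?_, ?_, ?_, ?_⟩
  · rw [← R.ker]
    intro x hx
    rw [mem_comap, MonoidHom.mem_ker.mp hx]
    exact one_mem _
  · intro x hx
    obtain ⟨j, hj, h⟩ := EA_le S hAH hx
    have h1 : x * j⁻¹ ∈ centralizer (V : Set G) := by
      rw [← R.ker, MonoidHom.mem_ker, map_mul, map_inv, h, mul_inv_cancel]
    have h2 : x = (x * j⁻¹) * j := by group
    rw [h2]
    exact mul_mem ((le_sup_right : _ ≤ J) h1) hj
  · intro x hx
    have h1 := H_le_normalizer_E S hgen hAH hA ⟨x, hx, rfl⟩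
    rw [mem_normalizer_iff] at h1 ⊢
    intro y
    rw [mem_comap, mem_comap, map_mul, map_mul, map_inv]
    exact h1 (θ y)
  · obtain ⟨hn, ⟨e⟩⟩ := quot_equiv R.ker (E' := EA Q A) (by
      intro y hy
      obtain ⟨j, -, h⟩ := EA_le S hAH hy
      exact ⟨j, h⟩)
    obtain ⟨e'⟩ := P.iso
    exact ⟨hn, ⟨e.trans e'⟩⟩

/-- K-S 9.3.9 -/
theorem s0619 (hsep : Cfsg.IsPSolvable p G) (V : Subgroup G) [V.Normal] (hV : Cfsg.IsElementaryAbelian p V)
    (hO : Cfsg.pCore p (G ⧸ centralizer (V : Set G)) = ⊥) :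
    ⁅Cfsg.omegaOne p (Cfsg.centerThompsonOf p (centralizer (V : Set G))), Cfsg.thompsonSubgroup p G⁆ ≤ V := by
  obtain ⟨Γ, _, _, V', θ, ψ, R⟩ := exists_rep V
  have hch := thompson_characteristic (p := p) (G := G)
  set C := centralizer (V : Set G) with hC
  set J := Cfsg.thompsonSubgroup p G ⊔ C with hJdef
  have hJn : J.Normal := inferInstance
  have S := R.setting hV hsep hO J
  set W := Cfsg.omegaOne p (Cfsg.centerThompsonOf p C) with hW
  have hVC : V ≤ C := CoprimeHyper.elemAb_le_centralizer hV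
  have hWe : Cfsg.IsElementaryAbelian p W := by
    apply ThompsonJ.elemAb_omegaOne
    rw [← le_centralizer_iff_isMulCommutative]
    unfold Cfsg.centerThompsonOf
    exact inf_le_right.trans (centralizer_le inf_le_left)
  have key : ∀ A ∈ Cfsg.maxElementaryAbelianSubgroups p G, ⁅W, A⁆ ≤ V := by
    intro A hA
    have hAe : Cfsg.IsElementaryAbelian p A := hA.1
    have hAJ : A ≤ J := (le_sSup hA : A ≤ Cfsg.thompsonSubgroup p G).trans le_sup_left
    have hbo := S0606.result V hV A hA
    have h1 := S.card_eq (map_mono hAJ : A.map θ ≤ J.map θ) (R.bestOff hbo)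
    have h2 := R.card_map A
    have h3 := R.card_fix A
    have h4 : Nat.card V' = Nat.card V := (Nat.card_congr ψ.toEquiv).symm
    rw [h3, h4] at h1
    -- `D = V C_A(V)`
    set D := V ⊔ (A ⊓ C) with hD
    have hDe : Cfsg.IsElementaryAbelian p D := by
      apply ThompsonJ.elemAb_sup hV (ThompsonJ.elemAb_mono hAe inf_le_left)
      rw [le_centralizer_iff]
      exact inf_le_right
    have hDcard := card_sup_mul_card_inf (N := V) (H := A ⊓ C)
      ((inf_le_right : A ⊓ C ≤ C).trans (centralizer_le_normalizer _))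
    have h5 : Nat.card ↥(V ⊓ (A ⊓ C) : Subgroup G) ≤ Nat.card ↥(V ⊓ centralizer (A : Set G)) := by
      apply card_le_of_le
      intro x hx
      exact mem_inf.mpr ⟨hx.1, (CoprimeHyper.elemAb_le_centralizer hAe) hx.2.1⟩
    have h6 : Nat.card A ≤ Nat.card D := by
      have hpos : 0 < Nat.card ↥(V ⊓ (A ⊓ C) : Subgroup G) := Nat.card_pos
      refine Nat.le_of_mul_le_mul_right ?_ hpos
      rw [hDcard, ← h2, ← h1]
      calc Nat.card ↥(A.map θ) * Nat.card ↥(A ⊓ C) * Nat.card ↥(V ⊓ (A ⊓ C) : Subgroup G) ≤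
            Nat.card ↥(A.map θ) * Nat.card ↥(A ⊓ C) * Nat.card ↥(V ⊓ centralizer (A : Set G)) := by gcongr
        _ = _ := by ring
    have hDmax : D ∈ Cfsg.maxElementaryAbelianSubgroups p G := ⟨hDe, fun B hB => (hA.2 B hB).trans h6⟩
    have hDC : D ≤ C := sup_le hVC inf_le_right
    have hDJ : D ≤ Cfsg.thompsonSubgroupOf p C := by
      rw [ThompsonJ.thompsonSubgroupOf_eq]
      exact ThompsonJ.le_J ⟨hDC, hDe, fun B _ hB => hDmax.2 B hB⟩
    have hWD : W ≤ centralizer (D : Set G) := by
      refine (ThompsonJ.omegaOne_le _).trans ?_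
      exact (inf_le_right : Cfsg.centerThompsonOf p C ≤ _).trans (centralizer_le hDJ)
    have hWle : W ≤ D := by
      have h7 := hDmax.2 _ (ThompsonJ.elemAb_sup hWe hDe hWD)
      have h8 : D = W ⊔ D := Subgroup.eq_of_le_of_card_ge le_sup_right h7
      rw [h8]; exact le_sup_left
    refine (commutator_mono hWle le_rfl).trans ?_
    have hDn : A ≤ normalizer (V : Set G) := by rw [Subgroup.normalizer_eq_top]; exact le_top
    rw [commutator_le]
    intro d hd a ha
    rw [hD, mem_sup_of_le_normalizer ((inf_le_right : A ⊓ C ≤ C).trans (centralizer_le_normalizer _))] at hd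
    obtain ⟨v, hv, c, hc, rfl⟩ := hd
    have h9 : ⁅v * c, a⁆ = ⁅v, a⁆ := by
      apply CoprimeAction2.commutatorElement_mul_left_of_commute
      exact CoprimeHyper.elemAb_comm hAe hc.1 ha
    rw [h9]
    exact OffenderBasic.comm_mem hDn ha hv
  rw [commutator_comm, commutator_le]
  intro x hx w hw
  have hle : Cfsg.thompsonSubgroup p G ≤ (⨆ A : {A : Subgroup G // A ∈ Cfsg.maxElementaryAbelianSubgroups p G},
      (A : Subgroup G)) := sSup_le fun A hA =>
    le_iSup (fun A : {A : Subgroup G // A ∈ Cfsg.maxElementaryAbelianSubgroups p G} => (A : Subgroup G)) ⟨A, hA⟩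
  have h1 := commutator_iSup_le (V := W) (W := V)
    (fun A : {A : Subgroup G // A ∈ Cfsg.maxElementaryAbelianSubgroups p G} => (A : Subgroup G))
    (fun A => by rw [Subgroup.normalizer_eq_top]; exact le_top) (fun A => key A A.2)
  have h2 : ⁅w, x⁆ ∈ V := h1 (commutator_mem_commutator hw (hle hx))
  have h3 : ⁅x, w⁆ = ⁅w, x⁆⁻¹ := by simp only [commutatorElement_def]; group
  rw [h3]
  exact inv_mem h2

end Cfsg.Agent.Lib.KS9Fac
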