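import Mathlib
import Cfsg.Agent.Lib.H76SylNorm
import Cfsg.Agent.Lib.H10PElts

/-!
# {p,q}-subgroups of p-solvable groups above a Sylow p-subgroup (helper51)
-/

set_option autoImplicit false

namespace Cfsg.Agent.Lib.PQSub

open Subgroup Cfsg
open scoped Pointwise
open Cfsg.Agent.Lib Cfsg.Agent.Lib.SubgroupTools

universe u

/-- `n` is a `{p,q}`-number -/
def PQNum (p q n : ℕ) : Prop := ∀ r : ℕ, r.Prime → r ∣ n → r = p ∨ r = q

theorem PQNum.mul {p q m n : ℕ} (hm : PQNum p q m) (hn : PQNum p q n) : PQNum p q (m * n) := by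
  intro r hr h
  rcases hr.dvd_mul.mp h with h | h
  · exact hm r hr h
  · exact hn r hr h

theorem PQNum.dvd {p q m n : ℕ} (hn : PQNum p q n) (h : m ∣ n) : PQNum p q m :=
  fun r hr h' => hn r hr (h'.trans h)

theorem pqNum_left {p q : ℕ} (hp : p.Prime) (k : ℕ) : PQNum p q (p ^ k) :=
  fun _ hr h => Or.inl ((Nat.prime_dvd_prime_iff_eq hr hp).mp (hr.dvd_of_dvd_pow h))

theorem pqNum_right {p q : ℕ} (hq : q.Prime) (k : ℕ) : PQNum p q (q ^ k) :=
  fun _ hr h => Or.inr ((Nat.prime_dvd_prime_iff_eq hr hq).mp (hr.dvd_of_dvd_pow h))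

theorem exists_pq (p q : ℕ) [hp : Fact p.Prime] [hq : Fact q.Prime] (hpq : p ≠ q) : ∀ (n : ℕ) (G : Type u) [Group G]
    [Finite G], Nat.card G = n → IsPSolvable p G → q ∣ Nat.card G → ∀ P : Sylow p G,
    ∃ Y : Subgroup G, (P : Subgroup G) ≤ Y ∧ q ∣ Nat.card Y ∧ PQNum p q (Nat.card Y) := by
  intro n
  induction n using Nat.strong_induction_on with
  | _ n ih =>
  intro G _ _ hn hS hqG P
  have hG : (⊤ : Subgroup G) ≠ ⊥ := by
    intro h0
    have : Nat.card (⊤ : Subgroup G) = 1 := by rw [h0, Subgroup.card_bot]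
    rw [Subgroup.card_top] at this
    rw [this] at hqG
    exact hq.out.one_lt.ne' (Nat.dvd_one.mp hqG)
  obtain ⟨N, hN, hN1, hNc⟩ := H10PElts.exists_normal hS hG
  set π := QuotientGroup.mk' N with hπ
  have hπs : Function.Surjective π := QuotientGroup.mk'_surjective _
  have hlt : Nat.card (G ⧸ N) < n := by
    have h1 := Subgroup.card_eq_card_quotient_mul_card_subgroup N
    have h2 : 1 < Nat.card N := by
      rw [Subgroup.one_lt_card_iff_ne_bot]; exact hN1
    have h3 : 0 < Nat.card (G ⧸ N) := Nat.card_pos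
    rw [← hn, h1]
    nlinarith
  have hSQ : IsPSolvable p (G ⧸ N) := H32PSolv.isPSolvable_quotient hS N
  have hPker : ∀ Y' : Subgroup (G ⧸ N), (P : Subgroup G).map π ≤ Y' → (P : Subgroup G) ≤ Y'.comap π := by
    intro Y' h
    exact Subgroup.map_le_iff_le_comap.mp h
  rcases hNc with hNp | hNp
  · -- `N` is a `p`-group
    have hqN : q ∣ Nat.card (G ⧸ N) := by
      rw [Subgroup.card_eq_card_quotient_mul_card_subgroup N] at hqG
      rcases hq.out.dvd_mul.mp hqG with h | h
      · exact h
      · exfalso
        obtain ⟨k, hk⟩ := IsPGroup.iff_card.mp hNp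
        rw [hk] at h
        exact hpq ((Nat.prime_dvd_prime_iff_eq hq.out hp.out).mp (hq.out.dvd_of_dvd_pow h)).symm
    obtain ⟨Y', hY1, hY2, hY3⟩ := ih _ hlt (G ⧸ N) rfl hSQ hqN (P.mapSurjective hπs)
    rw [Sylow.coe_mapSurjective] at hY1
    refine ⟨Y'.comap π, hPker Y' hY1, ?_, ?_⟩
    · rw [Cores.card_comap_mk]; exact hY2.mul_left _
    · rw [Cores.card_comap_mk]
      refine PQNum.mul ?_ hY3
      obtain ⟨k, hk⟩ := IsPGroup.iff_card.mp hNp
      rw [hk]; exact pqNum_left hp.out k
  · by_cases hqN : q ∣ Nat.card N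
    · -- `P` normalises a Sylow `q`-subgroup of `N`
      have hcop : (Nat.card P).Coprime (Nat.card N) := by
        obtain ⟨k, hk⟩ := (IsPGroup.iff_card (p := p)).1 P.2
        rw [hk]
        exact Nat.Coprime.pow_left k hNp.symm
      obtain ⟨Q, hQN, hQ, hQi, hPQ⟩ := CoprimeAction.exists_invariant_sylow (A := (P : Subgroup G)) (K := N)
        (le_normalizer_of_normal) hcop (Or.inl (by
          have := P.2.isNilpotent
          infer_instance)) q
      have hqQ : q ∣ Nat.card Q := by
        have h1 : Nat.card Q * Q.relIndex N = Nat.card N := Cores.card_mul_relIndex hQN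
        rw [← h1] at hqN
        rcases hq.out.dvd_mul.mp hqN with h | h
        · exact h
        · exact absurd h hQi
      refine ⟨(P : Subgroup G) ⊔ Q, le_sup_left, ?_, ?_⟩
      · exact hqQ.trans (Subgroup.card_dvd_of_le le_sup_right)
      · -- the order of `P Q`
        have h1 : Nat.card ((P : Subgroup G) ⊔ Q : Subgroup G) ∣ Nat.card P * Nat.card Q := by
          have h2 : ((P : Subgroup G) ⊔ Q : Subgroup G) = (P : Subgroup G) ⊔ Q := rfl
          have h3 : Nat.card ((P : Subgroup G) ⊔ Q : Subgroup G) =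
              Nat.card Q * Q.relIndex ((P : Subgroup G) ⊔ Q) := (Cores.card_mul_relIndex le_sup_right).symm
          rw [h3, mul_comm]
          apply mul_dvd_mul_right
          have h4 : Q.relIndex ((P : Subgroup G) ⊔ Q) = Q.relIndex P := by
            have hn1 : (P : Subgroup G) ⊔ Q ≤ normalizer (Q : Set G) := sup_le hPQ le_normalizer
            have hn2 : (Q.subgroupOf ((P : Subgroup G) ⊔ Q)).Normal := normal_subgroupOf_iff_le_normalizer' hn1
            have h5 := Subgroup.relIndex_sup_right (H := ((P : Subgroup G).subgroupOf ((P : Subgroup G) ⊔ Q)))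
              (K := (Q.subgroupOf ((P : Subgroup G) ⊔ Q)))
            have e1 : (P : Subgroup G).subgroupOf ((P : Subgroup G) ⊔ Q) ⊔ Q.subgroupOf ((P : Subgroup G) ⊔ Q) = ⊤ := by
              rw [← Subgroup.subgroupOf_sup le_sup_left le_sup_right, Subgroup.subgroupOf_self]
            rw [e1, Subgroup.relIndex_top_right] at h5
            have e2 : (Q.subgroupOf ((P : Subgroup G) ⊔ Q)).relIndex ((P : Subgroup G).subgroupOf ((P : Subgroup G) ⊔ Q)) =
                Q.relIndex P := Subgroup.relIndex_subgroupOf le_sup_left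
            rw [e2] at h5
            exact h5
          rw [h4]
          exact Subgroup.relIndex_dvd_card _ _
        refine PQNum.dvd (PQNum.mul ?_ ?_) h1
        · obtain ⟨k, hk⟩ := (IsPGroup.iff_card (p := p)).1 P.2
          rw [hk]; exact pqNum_left hp.out k
        · obtain ⟨k, hk⟩ := (IsPGroup.iff_card (p := q)).1 hQ
          rw [hk]; exact pqNum_right hq.out k
    · have hqN' : q ∣ Nat.card (G ⧸ N) := by
        rw [Subgroup.card_eq_card_quotient_mul_card_subgroup N] at hqG
        rcases hq.out.dvd_mul.mp hqG with h | h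
        · exact h
        · exact absurd h hqN
      obtain ⟨Y', hY1, hY2, hY3⟩ := ih _ hlt (G ⧸ N) rfl hSQ hqN' (P.mapSurjective hπs)
      rw [Sylow.coe_mapSurjective] at hY1
      set Z := Y'.comap π with hZ
      have hPZ : (P : Subgroup G) ≤ Z := hPker Y' hY1
      have hNZ : N ≤ Z := by
        rw [hZ]; intro x hx
        rw [Subgroup.mem_comap]
        have : π x = 1 := (QuotientGroup.eq_one_iff x).mpr hx
        rw [this]; exact one_mem _
      have hZc : Nat.card Z = Nat.card N * Nat.card Y' := Cores.card_comap_mk N Y'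
      have hrel : N.relIndex Z = Nat.card Y' := by
        have h1 := Cores.card_mul_relIndex hNZ
        rw [hZc] at h1
        exact Nat.eq_of_mul_eq_mul_left Nat.card_pos h1
      have hcopN : (Nat.card N).Coprime (Nat.card Y') := by
        rw [Nat.coprime_iff_gcd_eq_one]
        by_contra hne
        obtain ⟨r, hr, hrd⟩ := Nat.exists_prime_and_dvd hne
        rcases hY3 r hr (hrd.trans (Nat.gcd_dvd_right _ _)) with h | h
        · rw [h] at hrd
          have h5 : p ∣ 1 := by
            have := hNp
            rw [Nat.coprime_iff_gcd_eq_one] at this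
            rw [← this]
            exact Nat.dvd_gcd (hrd.trans (Nat.gcd_dvd_left _ _)) dvd_rfl
          exact hp.out.one_lt.ne' (Nat.dvd_one.mp h5)
        · rw [h] at hrd
          exact hqN (hrd.trans (Nat.gcd_dvd_left _ _))
      obtain ⟨H, hHZ, hHc, hNH, hNH2⟩ := CoprimeAction.exists_complement_rel (N := N) (S := Z)
        (le_normalizer_of_normal) (by
          have e1 : N ⊓ Z = N := inf_eq_left.mpr hNZ
          rw [e1, hrel]; exact hcopN)
      rw [hrel] at hHc
      -- conjugate `H` above `P`
      obtain ⟨SH⟩ : Nonempty (Sylow p H) := inferInstance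
      set P1 : Subgroup G := (SH : Subgroup H).map H.subtype with hP1
      have hP1H : P1 ≤ H := map_subtype_le _
      have hP1p : IsPGroup p P1 := SH.2.map _
      have hP1c : Nat.card P1 = Nat.card SH := card_map_of_injective H.subtype_injective
      have hP1i : ¬ p ∣ P1.relIndex Z := by
        have h1 : P1.relIndex H * H.relIndex Z = P1.relIndex Z := Subgroup.relIndex_mul_relIndex P1 H Z hP1H hHZ
        rw [← h1]
        intro hd
        rcases hp.out.dvd_mul.mp hd with h | h
        · have h2 : P1.subgroupOf H = (SH : Subgroup H) := by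
            rw [hP1, subgroupOf, comap_map_eq_self_of_injective H.subtype_injective]
          rw [relIndex, h2] at h
          exact SH.not_dvd_index h
        · have h2 := Cores.card_mul_relIndex hHZ
          rw [hHc, hZc, mul_comm] at h2
          have h3 : H.relIndex Z = Nat.card N := Nat.eq_of_mul_eq_mul_right Nat.card_pos h2
          rw [h3] at h
          have h5 : p ∣ 1 := by
            have := hNp
            rw [Nat.coprime_iff_gcd_eq_one] at this
            rw [← this]
            exact Nat.dvd_gcd h dvd_rfl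
          exact hp.out.one_lt.ne' (Nat.dvd_one.mp h5)
      have hPi : ¬ p ∣ (P : Subgroup G).relIndex Z := by
        intro hd
        exact P.not_dvd_index (hd.trans (Subgroup.relIndex_dvd_index_of_le hPZ))
      obtain ⟨k, hk, hkP⟩ := sylow_conj_rel (hP1H.trans hHZ) hPZ hP1p P.2 hP1i hPi
      refine ⟨MulAut.conj k • H, ?_, ?_, ?_⟩
      · rw [← hkP]
        exact conj_smul_mono k hP1H
      · rw [card_conj_smul, hHc]; exact hY2
      · rw [card_conj_smul, hHc]; exact hY3

end Cfsg.Agent.Lib.PQSub
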