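import Mathlib
import Cfsg.Agent.Lib.PQSub
import Cfsg.Agent.Lib.KS9Fac
import Cfsg.Agent.Lib.PairChar8
import Cfsg.Agent.Lib.PSolvTools
import Cfsg.Agent.Lib.QdFree
import Cfsg.Agent.Lib.RelSylow
import Cfsg.Agent.Lib.ClSL2
import Cfsg.Agent.Lib.HallNorm
import Cfsg.Agent.Lib.H34Sections

/-!
# q-elements acting on p-subgroups: Thompson factorization step (helper51)
-/

set_option autoImplicit false

namespace Cfsg.Agent.Lib.AutQ1

open Subgroup Cfsg
open scoped Pointwise
open Cfsg.Agent.Lib Cfsg.Agent.Lib.SubgroupTools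
open Cfsg.Agent.Lib.QdFree (IsPElem exists_lift_pElem)

universe u

theorem coprime_of_pElem {G : Type*} [Group G] [Finite G] {p q : ℕ} [hp : Fact p.Prime] [hq : Fact q.Prime]
    (hpq : p ≠ q) {N : Subgroup G} [N.Normal] {k : ℕ} (hN : N.index = p ^ k) {w : G} (hw : IsPElem q w) : w ∈ N := by
  obtain ⟨j, hj⟩ := hw
  have h1 : orderOf (QuotientGroup.mk' N w) ∣ q ^ j := by
    apply orderOf_dvd_of_pow_eq_one
    rw [← map_pow, hj, map_one]
  have h2 : orderOf (QuotientGroup.mk' N w) ∣ p ^ k := by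
    rw [← hN, Subgroup.index]
    exact orderOf_dvd_natCard _
  have h3 : Nat.Coprime (q ^ j) (p ^ k) :=
    Nat.Coprime.pow _ _ ((Nat.coprime_primes hq.out hp.out).mpr (Ne.symm hpq))
  have h4 := Nat.eq_one_of_dvd_coprimes h3 h1 h2
  rw [orderOf_eq_one_iff] at h4
  exact (QuotientGroup.eq_one_iff w).mp h4

/-- `C` normal with central Sylow subgroup -/
theorem central_sylow {C : Type*} [Group C] [Finite C] {p : ℕ} [hp : Fact p.Prime] {Z : Subgroup C}
    (hZ : IsPGroup p Z) (hZi : ¬ p ∣ Z.index) (hc : Z ≤ center C) :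
    ∃ k, (pPrimeCore p C).index = p ^ k := by
  have hZn : Z.Normal := by
    constructor
    intro n hn g
    have := mem_center_iff.mp (hc hn) g
    rw [this, mul_inv_cancel_right]; exact hn
  obtain ⟨a, ha⟩ := IsPGroup.iff_card.mp hZ
  have hcop : (Nat.card Z).Coprime Z.index := by
    rw [ha]
    exact Nat.Coprime.pow_left a ((Nat.Prime.coprime_iff_not_dvd hp.out).mpr hZi)
  obtain ⟨T, hT⟩ := exists_right_complement'_of_coprime hcop
  have hTn : T.Normal := by
    constructor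
    intro n hn g
    obtain ⟨⟨z, t⟩, hzt⟩ := hT.2 g
    simp only at hzt
    rw [← hzt]
    have h1 : (z : C) * t * n * ((z : C) * t)⁻¹ = t * n * (t : C)⁻¹ := by
      have h2 := mem_center_iff.mp (hc z.2) (t * n * (t : C)⁻¹)
      calc (z : C) * t * n * ((z : C) * t)⁻¹ = z * (t * n * (t : C)⁻¹) * (z : C)⁻¹ := by group
        _ = (t * n * (t : C)⁻¹) * z * (z : C)⁻¹ := by rw [h2]
        _ = _ := by group
    rw [h1]
    exact T.mul_mem (T.mul_mem t.2 hn) (T.inv_mem t.2)
  have hTc : (Nat.card T).Coprime p := by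
    rw [← hT.symm.index_eq_card]
    exact ((Nat.Prime.coprime_iff_not_dvd hp.out).mpr hZi).symm
  have hTle : T ≤ pPrimeCore p C := Cores.le_pPrimeCore hTn hTc
  have hTi : T.index = p ^ a := by rw [hT.index_eq_card, ha]
  have h1 : (pPrimeCore p C).index ∣ p ^ a := by
    rw [← hTi]; exact Subgroup.index_dvd_of_le hTle
  obtain ⟨k, _, hk⟩ := (Nat.dvd_prime_pow hp.out).mp h1
  exact ⟨k, hk⟩

theorem not_sl2 {p q : ℕ} [hp : Fact p.Prime] [hq : Fact q.Prime] (h23 : ¬ ((p = 2 ∧ q = 3) ∨ (p = 3 ∧ q = 2)))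
    {Y : Type*} [Group Y] [Finite Y] (hY : PQSub.PQNum p q (Nat.card Y)) (hp23 : p = 2 ∨ p = 3)
    (hd : Nat.card (Matrix.SpecialLinearGroup (Fin 2) (ZMod p)) ∣ Nat.card Y) : False := by
  rw [ClSL2.card_SL2 (ZMod.card p)] at hd
  rcases hp23 with rfl | rfl
  · rcases hY 3 (by norm_num) (dvd_trans (by norm_num) hd) with h | h
    · omega
    · exact h23 (Or.inl ⟨rfl, h.symm⟩)
  · rcases hY 2 (by norm_num) (dvd_trans (by norm_num) hd) with h | h
    · omega
    · exact h23 (Or.inr ⟨rfl, h.symm⟩)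

/-- in a product of two subgroups, a prime dividing the order divides one of the orders -/
theorem dvd_of_factor {Y : Type*} [Group Y] [Finite Y] {q : ℕ} (hq : q.Prime) (A B : Subgroup Y)
    (h : ∀ g : Y, ∃ a ∈ A, ∃ b ∈ B, g = a * b) (hd : q ∣ Nat.card Y) : q ∣ Nat.card A ∨ q ∣ Nat.card B := by
  classical
  have h1 : Nat.card (Y ⧸ B) ∣ Nat.card A := by
    have horb : MulAction.orbit A ((1 : Y) : Y ⧸ B) = Set.univ := by
      ext x
      refine ⟨fun _ => Set.mem_univ _, fun _ => ?_⟩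
      induction x using QuotientGroup.induction_on with
      | H g =>
        obtain ⟨a, ha, b, hb, rfl⟩ := h g
        refine ⟨⟨a, ha⟩, ?_⟩
        change ((a * 1 : Y) : Y ⧸ B) = ((a * b : Y) : Y ⧸ B)
        rw [QuotientGroup.eq]
        simpa using hb
    have h2 := Nat.card_congr (MulAction.orbitEquivQuotientStabilizer A ((1 : Y) : Y ⧸ B))
    have h3 : Nat.card (MulAction.orbit A ((1 : Y) : Y ⧸ B)) = Nat.card (Y ⧸ B) := by
      rw [horb]; exact Nat.card_congr (Equiv.Set.univ _)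
    rw [← h3, h2]
    exact Subgroup.index_dvd_card _
  rw [Subgroup.card_eq_card_quotient_mul_card_subgroup B] at hd
  rcases hq.dvd_mul.mp hd with h | h
  · exact Or.inl (h.trans h1)
  · exact Or.inr h

end Cfsg.Agent.Lib.AutQ1
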