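import Mathlib
import Cfsg.Agent.Lib.AutQ1

/-!
# q-elements acting on p-subgroups: local lemma (helper51)
-/

set_option autoImplicit false

namespace Cfsg.Agent.Lib.AutQ2

open Subgroup Cfsg
open scoped Pointwise
open Cfsg.Agent.Lib Cfsg.Agent.Lib.SubgroupTools Cfsg.Agent.Lib.AutQ1
open Cfsg.Agent.Lib.QdFree (IsPElem exists_lift_pElem isPElem_map)

universe u

theorem char_map_equiv {A B : Type*} [Group A] [Group B] (e : A ≃* B) {K : Subgroup A} (hK : K.Characteristic) :
    (K.map e.toMonoidHom).Characteristic := by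
  rw [characteristic_iff_map_le]
  intro φ
  let ψ : A ≃* A := (e.trans φ).trans e.symm
  have h1 := (characteristic_iff_map_eq.mp hK) ψ
  rintro _ ⟨_, ⟨x, hx, rfl⟩, rfl⟩
  have h2 : ψ x ∈ K := by rw [← h1]; exact ⟨x, hx, rfl⟩
  refine ⟨ψ x, h2, ?_⟩
  change e (e.symm (φ (e x))) = φ (e x)
  rw [MulEquiv.apply_symm_apply]

/-- `Ω₁(Z(S))` inside `S` -/
def oz (p : ℕ) (S : Type*) [Group S] : Subgroup S := closure {x | x ∈ center S ∧ x ^ p = 1}

theorem oz_char (p : ℕ) (S : Type*) [Group S] : (oz p S).Characteristic := by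
  rw [characteristic_iff_map_le]
  intro φ
  unfold oz
  rw [MonoidHom.map_closure, closure_le]
  rintro _ ⟨x, ⟨hx1, hx2⟩, rfl⟩
  apply Subgroup.subset_closure
  refine ⟨?_, ?_⟩
  · rw [mem_center_iff] at hx1 ⊢
    intro g
    have := hx1 (φ.symm g)
    have h2 := congrArg φ this
    rw [map_mul, map_mul, MulEquiv.apply_symm_apply] at h2
    exact h2
  · change (φ x) ^ p = 1
    rw [← map_pow, hx2, map_one]

theorem oz_ne_bot {p : ℕ} [hp : Fact p.Prime] {S : Type*} [Group S] [Finite S] [Nontrivial S] (hS : IsPGroup p S) :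
    oz p S ≠ ⊥ := by
  have h1 := hS.center_nontrivial
  have h2 : IsPGroup p (center S) := hS.to_subgroup _
  obtain ⟨k, hk0, hk⟩ := (IsPGroup.nontrivial_iff_card h2).mp h1
  have h3 : p ∣ Nat.card (center S) := by rw [hk]; exact dvd_pow_self p (by omega)
  obtain ⟨z, hz⟩ := exists_prime_orderOf_dvd_card' p h3
  intro h0
  have h4 : (z : S) ∈ oz p S := by
    apply Subgroup.subset_closure
    refine ⟨z.2, ?_⟩
    rw [← SubmonoidClass.coe_pow, ← hz, pow_orderOf_eq_one]; rfl
  rw [h0, mem_bot] at h4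
  have h5 : z = 1 := Subtype.ext h4
  rw [h5, orderOf_one] at hz
  exact hp.out.one_lt.ne hz

theorem thompson_ne_bot {p : ℕ} [hp : Fact p.Prime] {S : Type u} [Group S] [Finite S] [Nontrivial S]
    (hS : IsPGroup p S) : thompsonSubgroup p S ≠ ⊥ := by
  obtain ⟨k, hk0, hk⟩ := (IsPGroup.nontrivial_iff_card hS).mp inferInstance
  have h3 : p ∣ Nat.card S := by rw [hk]; exact dvd_pow_self p (by omega)
  obtain ⟨z, hz⟩ := exists_prime_orderOf_dvd_card' p h3
  have hel : IsElementaryAbelian p (zpowers z) := by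
    refine ⟨inferInstance, ?_⟩
    rintro _ ⟨j, rfl⟩
    change (z ^ j) ^ p = 1
    rw [← zpow_natCast, ← zpow_mul, mul_comm, zpow_mul, zpow_natCast, ← hz, pow_orderOf_eq_one, one_zpow]
  obtain ⟨A, hA, hmax⟩ := Set.exists_max_image {A : Subgroup S | IsElementaryAbelian p A} (fun A => Nat.card A)
    (Set.toFinite _) ⟨_, hel⟩
  intro h0
  have h4 : A ≤ thompsonSubgroup p S := le_sSup ⟨hA, hmax⟩
  rw [h0, le_bot_iff] at h4
  have h5 := hmax _ hel
  rw [h4, Subgroup.card_bot, Nat.card_zpowers, hz] at h5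
  exact absurd hp.out.one_lt (not_lt.mpr h5)

theorem exists_char {M : Type u} [Group M] [Finite M] {p q : ℕ} [hp : Fact p.Prime] [hq : Fact q.Prime]
    (hpq : p ≠ q) (h23 : ¬ ((p = 2 ∧ q = 3) ∨ (p = 3 ∧ q = 2))) (H : Subgroup M) [hHn : H.Normal]
    (hHp : IsPGroup p H) (P : Sylow p M) (hcent : (P : Subgroup M) ⊓ centralizer (H : Set M) ≤ H)
    (hps : IsPSolvable p (M ⧸ centralizer (H : Set M)))
    (hy : ∃ y : M, IsPElem q y ∧ y ∉ centralizer (H : Set M)) :
    ∃ Kc : Subgroup ↥(P : Subgroup M), Kc.Characteristic ∧ Kc ≠ ⊥ ∧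
      ∃ w ∈ normalizer ((Kc.map (P : Subgroup M).subtype : Subgroup M) : Set M), IsPElem q w ∧
        w ∉ centralizer (H : Set M) := by
  set C := centralizer (H : Set M) with hC
  have hCn : C.Normal := inferInstance
  set O := pPrimeCore p M with hO
  have hOn : O.Normal := inferInstance
  have hOc : (Nat.card O).Coprime p := Cores.coprime_card_pPrimeCore p M
  have hOp : ¬ p ∣ Nat.card O := (Nat.Prime.coprime_iff_not_dvd hp.out).mp hOc.symm
  have hOH : ∀ x ∈ O, x ∈ H → x = 1 := fun x hxO hxH => RelSylow.eq_one_of_mem hOp hHp hxO hxH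
  have hOP : ∀ x ∈ O, x ∈ (P : Subgroup M) → x = 1 := fun x hxO hxH => RelSylow.eq_one_of_mem hOp P.2 hxO hxH
  have hHP : H ≤ (P : Subgroup M) := (Cores.le_pCore hHn hHp).trans (Cores.pCore_le_sylow P)
  have hmemC : ∀ w : M, (∀ h ∈ H, w * h * w⁻¹ * h⁻¹ = 1) → w ∈ C := by
    intro w hw
    rw [hC, mem_centralizer_iff]
    intro h hh
    have := hw h hh
    have h2 : w * h * w⁻¹ = h := mul_inv_eq_one.mp this
    exact (mul_inv_eq_iff_eq_mul.mp h2).symm
  have hOC : O ≤ C := by
    intro x hx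
    apply hmemC
    intro h hh
    apply hOH
    · have h1 := hOn.conj_mem _ (inv_mem hx) h
      have e : x * h * x⁻¹ * h⁻¹ = x * (h * x⁻¹ * h⁻¹) := by group
      rw [e]; exact mul_mem hx h1
    · exact mul_mem (hHn.conj_mem _ hh x) (inv_mem hh)
  -- the centralizer
  have hsylC : RelSylow.IsSyl p ((P : Subgroup M) ⊓ C) C :=
    ((RelSylow.isSyl_top_iff P)).inf le_top (by rw [Subgroup.normalizer_eq_top])
  obtain ⟨k, hk⟩ := central_sylow (C := C) (p := p) (Z := (P : Subgroup M).subgroupOf C)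
    (P.2.comap_of_injective C.subtype C.subtype_injective)
    (by
      have := hsylC.2.2
      rwa [inf_relIndex_right] at this)
    (by
      intro z hz
      rw [mem_center_iff]
      intro c
      apply Subtype.ext
      have h1 : (z : M) ∈ H := hcent ⟨hz, z.2⟩
      exact ((mem_centralizer_iff.mp c.2) z h1).symm)
  have hCO : ∀ w ∈ C, IsPElem q w → w ∈ O := by
    rintro w hw ⟨j, hj⟩
    have h1 : (⟨w, hw⟩ : C) ∈ pPrimeCore p C := by
      apply coprime_of_pElem hpq hk
      exact ⟨j, Subtype.ext hj⟩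
    exact Cores.map_pPrimeCore_subtype_le p C ⟨_, h1, rfl⟩
  -- `M` is `p`-solvable
  have hsC : IsPSolvable p C := by
    apply PairChar8.isPSolvable_ext (pPrimeCore p C)
    · exact PairChar8.isPSolvable_of_coprime (Cores.coprime_card_pPrimeCore p C)
    · apply PairChar8.isPSolvable_of_isPGroup
      apply IsPGroup.of_card (n := k)
      rw [← hk]; rfl
  have hsM : IsPSolvable p M := PairChar8.isPSolvable_ext C hsC hps
  -- the quotient
  set π := QuotientGroup.mk' O with hπ
  have hπs : Function.Surjective π := QuotientGroup.mk'_surjective _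
  have hπ1 : ∀ x, π x = 1 ↔ x ∈ O := fun x => QuotientGroup.eq_one_iff x
  have hsQ : IsPSolvable p (M ⧸ O) := H32PSolv.isPSolvable_quotient hsM O
  set Hb := H.map π with hHb
  have hHbn : Hb.Normal := hHn.map π hπs
  have hHbp : IsPGroup p Hb := hHp.map π
  have hfix : ∀ x : M ⧸ O, IsPElem q x → x ∈ centralizer (Hb : Set (M ⧸ O)) → x = 1 := by
    intro x hx hxc
    obtain ⟨w, rfl, hw⟩ := exists_lift_pElem π hπs hx
    rw [hπ1]
    apply hCO w _ hw
    apply hmemC
    intro h hh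
    apply hOH
    · rw [← hπ1, map_mul, map_mul, map_mul, map_inv, map_inv]
      have h2 := (mem_centralizer_iff.mp hxc) (π h) ⟨h, hh, rfl⟩
      rw [← h2, mul_inv_cancel_right, mul_inv_cancel]
    · exact mul_mem (hHn.conj_mem _ hh w) (inv_mem hh)
  have hqQ : q ∣ Nat.card (M ⧸ O) := by
    obtain ⟨y, ⟨j, hj⟩, hyC⟩ := hy
    have h1 : π y ≠ 1 := fun h => hyC (hOC ((hπ1 y).mp h))
    have h2 : orderOf (π y) ∣ q ^ j := by
      apply orderOf_dvd_of_pow_eq_one; rw [← map_pow, hj, map_one]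
    obtain ⟨i, _, hi⟩ := (Nat.dvd_prime_pow hq.out).mp h2
    have h3 : i ≠ 0 := by
      intro h0; rw [h0, pow_zero, orderOf_eq_one_iff] at hi; exact h1 hi
    exact ((dvd_pow_self q h3).trans (dvd_of_eq hi.symm)).trans (orderOf_dvd_natCard _)
  obtain ⟨Y, hPY, hqY, hYn⟩ := PQSub.exists_pq p q hpq _ (M ⧸ O) rfl hsQ hqQ (P.mapSurjective hπs)
  set Pb := P.mapSurjective hπs with hPb
  have hPbc : (Pb : Subgroup (M ⧸ O)) = (P : Subgroup M).map π := Sylow.coe_mapSurjective hπs P
  have hHbP : Hb ≤ (Pb : Subgroup (M ⧸ O)) := by rw [hPbc]; exact map_mono hHP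
  have hsY : IsPSolvable p Y := PSolvTools.isPSolvable_subgroup hp.out hsQ Y
  -- `O_{p'}(Y) = 1`
  have hOY : pPrimeCore p Y = ⊥ := by
    by_contra hne
    have h1 : Nat.card (pPrimeCore p Y) ≠ 1 := by
      intro h; exact hne (Subgroup.card_eq_one.mp h)
    obtain ⟨r, hr, hrd⟩ := Nat.exists_prime_and_dvd h1
    have hrq : r = q := by
      rcases hYn r hr (hrd.trans (Subgroup.card_subgroup_dvd_card _)) with h | h
      · exfalso
        have h2 := Cores.coprime_card_pPrimeCore p Y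
        exact (Nat.Prime.coprime_iff_not_dvd hp.out).mp h2.symm ((dvd_of_eq h.symm).trans hrd)
      · exact h
    subst hrq
    obtain ⟨x, hx⟩ := exists_prime_orderOf_dvd_card' r hrd
    have hx1 : ((x : Y) : M ⧸ O) = 1 := by
      apply hfix
      · refine ⟨1, ?_⟩
        rw [pow_one]
        have : (x : pPrimeCore p Y) ^ r = 1 := by rw [← hx, pow_orderOf_eq_one]
        exact congrArg (fun z : pPrimeCore p Y => ((z : Y) : M ⧸ O)) this
      · rw [mem_centralizer_iff]
        intro h hh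
        have hhY : h ∈ Y := hPY (hHbP hh)
        have h3 : ((x : Y) : M ⧸ O) * h * ((x : Y) : M ⧸ O)⁻¹ * h⁻¹ = 1 := by
          have h4 : (x : Y) * ⟨h, hhY⟩ * (x : Y)⁻¹ * (⟨h, hhY⟩ : Y)⁻¹ ∈ pPrimeCore p Y := by
            have hn : (pPrimeCore p Y).Normal := inferInstance
            have h5 := hn.conj_mem _ (inv_mem x.2) (⟨h, hhY⟩ : Y)
            have e : (x : Y) * ⟨h, hhY⟩ * (x : Y)⁻¹ * (⟨h, hhY⟩ : Y)⁻¹ =
              (x : Y) * (⟨h, hhY⟩ * (x : Y)⁻¹ * (⟨h, hhY⟩ : Y)⁻¹) := by group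
            rw [e]; exact mul_mem x.2 h5
          have h5 : (x : Y) * ⟨h, hhY⟩ * (x : Y)⁻¹ * (⟨h, hhY⟩ : Y)⁻¹ ∈ Hb.subgroupOf Y := by
            rw [mem_subgroupOf]
            exact mul_mem (hHbn.conj_mem _ hh _) (inv_mem hh)
          have h6 : IsPGroup p (Hb.subgroupOf Y) := hHbp.comap_of_injective Y.subtype Y.subtype_injective
          have h7 := RelSylow.eq_one_of_mem ((Nat.Prime.coprime_iff_not_dvd hp.out).mp
            (Cores.coprime_card_pPrimeCore p Y).symm) h6 h4 h5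
          exact congrArg Subtype.val h7
        exact (mul_inv_eq_iff_eq_mul.mp (mul_inv_eq_one.mp h3)).symm
    have hx2 : x = 1 := Subtype.ext (Subtype.ext hx1)
    rw [hx2, orderOf_one] at hx
    exact hr.one_lt.ne hx
  -- Thompson factorization
  have hTF : IsThompsonFactorizable p Y := by
    by_contra hnf
    obtain ⟨h1, E, -, -, -, hn, ⟨e⟩⟩ := KS9Fac.s0618 hsY hOY hnf rfl
    apply not_sl2 h23 hYn h1
    rw [← Nat.card_congr e.toEquiv]
    exact (Subgroup.index_dvd_card _).trans (Subgroup.card_subgroup_dvd_card _)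
  let S0 : Sylow p Y := Pb.subtype hPY
  have hS0 : (S0 : Subgroup Y) = (Pb : Subgroup (M ⧸ O)).subgroupOf Y := rfl
  -- the isomorphism
  have hmemPb : ∀ g ∈ (P : Subgroup M), π g ∈ (Pb : Subgroup (M ⧸ O)) := fun g hg => by
    rw [hPbc]; exact ⟨g, hg, rfl⟩
  let f : ↥(P : Subgroup M) →* ↥(S0 : Subgroup Y) :=
    { toFun := fun g => ⟨⟨π g, hPY (hmemPb g g.2)⟩, hmemPb g g.2⟩
      map_one' := by apply Subtype.ext; apply Subtype.ext; exact map_one π
      map_mul' := fun a b => by apply Subtype.ext; apply Subtype.ext; exact map_mul π _ _ }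
  have hfv : ∀ g, ((f g : Y) : M ⧸ O) = π g := fun g => rfl
  have hfb : Function.Bijective f := by
    constructor
    · rw [injective_iff_map_eq_one]
      intro g hg
      have h1 : π g = 1 := by rw [← hfv, hg]; rfl
      exact Subtype.ext (hOP _ ((hπ1 _).mp h1) g.2)
    · intro s
      have h1 : ((s : Y) : M ⧸ O) ∈ (Pb : Subgroup (M ⧸ O)) := s.2
      rw [hPbc] at h1
      obtain ⟨g, hg, hgs⟩ := h1
      exact ⟨⟨g, hg⟩, Subtype.ext (Subtype.ext hgs)⟩
  let e : ↥(P : Subgroup M) ≃* ↥(S0 : Subgroup Y) := MulEquiv.ofBijective f hfb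
  have hev : ∀ g, ((e g : Y) : M ⧸ O) = π g := fun g => rfl
  have key : ∀ (K' : Subgroup ↥(S0 : Subgroup Y)), K'.Characteristic → K' ≠ ⊥ →
      ∀ a : Y, orderOf a = q → a ∈ normalizer ((K'.map (S0 : Subgroup Y).subtype : Subgroup Y) : Set Y) →
      ∃ Kc : Subgroup ↥(P : Subgroup M), Kc.Characteristic ∧ Kc ≠ ⊥ ∧
      ∃ w ∈ normalizer ((Kc.map (P : Subgroup M).subtype : Subgroup M) : Set M), IsPElem q w ∧ w ∉ C := by
    intro K' hK' hK1 a ha haN
    refine ⟨K'.map e.symm.toMonoidHom, char_map_equiv e.symm hK', ?_, ?_⟩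
    · rw [Ne, Subgroup.map_eq_bot_iff_of_injective _ e.symm.injective]; exact hK1
    · set K0 : Subgroup M := (K'.map e.symm.toMonoidHom).map (P : Subgroup M).subtype with hK0
      have hK0p : IsPGroup p K0 := by
        rw [hK0]
        exact ((S0.2.to_subgroup K').map _).map _
      have hmap : K0.map π = (K'.map (S0 : Subgroup Y).subtype).map Y.subtype := by
        ext x
        constructor
        · rintro ⟨_, ⟨_, ⟨s, hs, rfl⟩, rfl⟩, rfl⟩
          refine ⟨(s : Y), ⟨s, hs, rfl⟩, ?_⟩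
          have h1 := hev (e.symm s)
          rw [MulEquiv.apply_symm_apply] at h1
          exact h1
        · rintro ⟨_, ⟨s, hs, rfl⟩, rfl⟩
          refine ⟨((e.symm s : ↥(P : Subgroup M)) : M), ⟨e.symm s, ⟨s, hs, rfl⟩, rfl⟩, ?_⟩
          have h1 := hev (e.symm s)
          rw [MulEquiv.apply_symm_apply] at h1
          exact h1.symm
      have hn1 : (a : M ⧸ O) ∈ normalizer ((K0.map π : Subgroup (M ⧸ O)) : Set (M ⧸ O)) := by
        rw [hmap]
        exact le_normalizer_map Y.subtype ⟨a, haN, rfl⟩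
      have hn2 : (normalizer (K0 : Set M)).map π = normalizer ((K0.map π : Subgroup (M ⧸ O)) : Set (M ⧸ O)) := by
        apply H34Sections.map_normalizer_of_coprime π hπs K0 hK0p
        rw [hπ, QuotientGroup.ker_mk']; exact hOc
      rw [← hn2] at hn1
      have haE : IsPElem q (⟨(a : M ⧸ O), hn1⟩ : (normalizer (K0 : Set M)).map π) := by
        refine ⟨1, ?_⟩
        apply Subtype.ext
        change (a : M ⧸ O) ^ (q ^ 1) = 1
        rw [pow_one]
        have : a ^ q = 1 := by rw [← ha, pow_orderOf_eq_one]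
        exact congrArg Subtype.val this
      obtain ⟨w, hw1, hw2⟩ := exists_lift_pElem (π.subgroupMap (normalizer (K0 : Set M)))
        (π.subgroupMap_surjective _) haE
      have hw3 : π w = a := congrArg Subtype.val hw1
      refine ⟨w, w.2, isPElem_map (normalizer (K0 : Set M)).subtype hw2, ?_⟩
      intro hwC
      have h1 := hCO _ hwC (isPElem_map (normalizer (K0 : Set M)).subtype hw2)
      rw [← hπ1, hw3] at h1
      have h2 : a = 1 := Subtype.ext h1
      rw [h2, orderOf_one] at ha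
      exact hq.out.one_lt.ne ha
  have hPnt : Nontrivial ↥(S0 : Subgroup Y) := by
    have h1 : Nontrivial H := by
      rw [nontrivial_iff_ne_bot]
      intro h0
      obtain ⟨y, -, hyC⟩ := hy
      apply hyC
      apply hmemC
      intro h hh
      rw [h0, mem_bot] at hh
      rw [hh]; group
    have h2 : Nontrivial ↥(P : Subgroup M) := by
      obtain ⟨h, hh⟩ := exists_ne (1 : H)
      refine ⟨⟨⟨h, hHP h.2⟩, 1, fun h0 => hh (Subtype.ext ?_)⟩⟩
      exact congrArg (fun z : ↥(P : Subgroup M) => (z : M)) h0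
    exact e.symm.toEquiv.nontrivial
  have hS0p : IsPGroup p ↥(S0 : Subgroup Y) := S0.2
  -- conclusion
  have hfac : ∀ g : Y, ∃ c ∈ centralizer (omegaOne p ((S0 : Subgroup Y) ⊓ centralizer ((S0 : Subgroup Y) : Set Y)) : Set Y),
      ∃ n ∈ normalizer (thompsonSubgroupOf p (S0 : Subgroup Y) : Set Y), g = c * n := by
    intro g
    obtain ⟨x, hx, c, hc, n, hn, h⟩ := hTF S0 g
    rw [hOY, mem_bot] at hx
    exact ⟨c, hc, n, hn, by rw [h, hx, one_mul]⟩
  rcases dvd_of_factor hq.out _ _ hfac hqY with hd | hd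
  · obtain ⟨a, ha⟩ := exists_prime_orderOf_dvd_card' q hd
    apply key (oz p ↥(S0 : Subgroup Y)) (oz_char p _) (oz_ne_bot hS0p) (a : Y) (by rw [orderOf_coe]; exact ha)
    have hom : (oz p ↥(S0 : Subgroup Y)).map (S0 : Subgroup Y).subtype ≤
        omegaOne p ((S0 : Subgroup Y) ⊓ centralizer ((S0 : Subgroup Y) : Set Y)) := by
      unfold oz omegaOne
      rw [MonoidHom.map_closure, closure_le]
      rintro _ ⟨x, ⟨hx1, hx2⟩, rfl⟩
      apply Subgroup.subset_closure
      refine ⟨⟨x.2, ?_⟩, ?_⟩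
      · change (S0 : Subgroup Y).subtype x ∈ centralizer ((S0 : Subgroup Y) : Set Y)
        rw [mem_centralizer_iff]
        intro s hs
        exact congrArg Subtype.val ((mem_center_iff.mp hx1) ⟨s, hs⟩)
      · exact congrArg Subtype.val hx2
    have h1 : (a : Y) ∈ centralizer (((oz p ↥(S0 : Subgroup Y)).map (S0 : Subgroup Y).subtype : Subgroup Y) : Set Y) :=
      centralizer_le hom a.2
    exact centralizer_le_normalizer _ h1
  · obtain ⟨a, ha⟩ := exists_prime_orderOf_dvd_card' q hd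
    exact key (thompsonSubgroup p ↥(S0 : Subgroup Y)) KS9Fac.thompson_characteristic (thompson_ne_bot hS0p) (a : Y)
      (by rw [orderOf_coe]; exact ha) a.2

end Cfsg.Agent.Lib.AutQ2
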