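import Mathlib
import Cfsg.Agent.Lib.AutQ2
import Cfsg.Agent.Lib.PConstraint

/-!
# q-elements acting on p-subgroups: reductions (helper51)
-/

set_option autoImplicit false

namespace Cfsg.Agent.Lib.AutQ3

open Subgroup Cfsg
open scoped Pointwise
open Cfsg.Agent.Lib Cfsg.Agent.Lib.SubgroupTools Cfsg.Agent.Lib.AutQ1 Cfsg.Agent.Lib.AutQ2
open Cfsg.Agent.Lib.QdFree (IsPElem exists_lift_pElem isPElem_map)

universe u

/-- some `q`-element acts nontrivially on `H`. -/
def QA (q : ℕ) {G : Type*} [Group G] (H : Subgroup G) : Prop :=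
  ∃ y ∈ normalizer (H : Set G), y ∉ centralizer (H : Set G) ∧ IsPElem q y

/-- all automizers of `p`-subgroups are `p`-solvable. -/
def Hyp (p : ℕ) (G : Type*) [Group G] : Prop :=
  ∀ H : Subgroup G, IsPGroup p H →
    IsPSolvable p (↥(normalizer (H : Set G)) ⧸ (centralizer (H : Set G)).subgroupOf (normalizer (H : Set G)))

theorem qa_iff {G : Type*} [Group G] [Finite G] {q : ℕ} [hq : Fact q.Prime] (H : Subgroup G) :
    q ∣ ((centralizer (H : Set G)).subgroupOf (normalizer (H : Set G))).index ↔ QA q H := by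
  constructor
  · intro h
    obtain ⟨x, hx⟩ := exists_prime_orderOf_dvd_card' (G := ↥(normalizer (H : Set G)) ⧸
      (centralizer (H : Set G)).subgroupOf (normalizer (H : Set G))) q h
    obtain ⟨y, hy1, hy2⟩ := exists_lift_pElem (p := q) (QuotientGroup.mk' ((centralizer (H : Set G)).subgroupOf
      (normalizer (H : Set G)))) (QuotientGroup.mk'_surjective _) (y := x)
      ⟨1, by rw [pow_one, ← hx]; exact pow_orderOf_eq_one x⟩
    refine ⟨y, y.2, ?_, isPElem_map (normalizer (H : Set G)).subtype hy2⟩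
    intro hyC
    have h1 : QuotientGroup.mk' ((centralizer (H : Set G)).subgroupOf (normalizer (H : Set G))) y = 1 :=
      (QuotientGroup.eq_one_iff y).mpr hyC
    rw [hy1] at h1
    rw [h1, orderOf_one] at hx
    exact hq.out.one_lt.ne hx
  · rintro ⟨y, hyN, hyC, j, hj⟩
    let z : ↥(normalizer (H : Set G)) ⧸ (centralizer (H : Set G)).subgroupOf (normalizer (H : Set G)) :=
      QuotientGroup.mk' _ ⟨y, hyN⟩
    have hz1 : z ^ q ^ j = 1 := by
      have h1 : (⟨y, hyN⟩ : ↥(normalizer (H : Set G))) ^ q ^ j = 1 := Subtype.ext hj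
      show (QuotientGroup.mk' _ _) ^ q ^ j = 1
      rw [← map_pow, h1, map_one]
    have hz : z ≠ 1 := fun h => hyC ((QuotientGroup.eq_one_iff (⟨y, hyN⟩ : ↥(normalizer (H : Set G)))).mp h)
    obtain ⟨i, _, hi⟩ := (Nat.dvd_prime_pow hq.out).mp (orderOf_dvd_of_pow_eq_one hz1)
    have hi0 : i ≠ 0 := by
      rintro rfl
      rw [pow_zero, orderOf_eq_one_iff] at hi
      exact hz hi
    exact ((dvd_pow_self q hi0).trans (hi ▸ dvd_refl _)).trans (orderOf_dvd_natCard z)

theorem hyp_sub {G : Type u} [Group G] [Finite G] {p : ℕ} (hp : p.Prime) (h : Hyp p G) (L : Subgroup G) :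
    Hyp p L := by
  intro R hR
  have h1 := h (R.map L.subtype) (hR.map _)
  have hmem : ∀ x : ↥(normalizer (R : Set L)), ((x : L) : G) ∈ normalizer ((R.map L.subtype : Subgroup G) : Set G) := by
    intro x
    rw [mem_normalizer_iff]
    intro g
    have hx := mem_normalizer_iff.mp x.2
    constructor
    · rintro ⟨r, hr, rfl⟩
      exact ⟨_, (hx r).mp hr, rfl⟩
    · rintro ⟨r, hr, hrg⟩
      have h2 : g = (((x : L)⁻¹ * r * (x : L) : L) : G) := by
        have h3 : ((r : L) : G) = (x : L) * g * ((x : L) : G)⁻¹ := hrg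
        push_cast
        rw [h3]; group
      refine ⟨(x : L)⁻¹ * r * (x : L), ?_, h2.symm⟩
      show (x : L)⁻¹ * r * (x : L) ∈ R
      rw [hx]
      have : (x : L) * ((x : L)⁻¹ * r * (x : L)) * (x : L)⁻¹ = r := by group
      rw [this]; exact hr
  let φ : ↥(normalizer (R : Set L)) →* ↥(normalizer ((R.map L.subtype : Subgroup G) : Set G)) :=
    { toFun := fun x => ⟨((x : L) : G), hmem x⟩
      map_one' := rfl
      map_mul' := fun _ _ => rfl }
  let ψ := (QuotientGroup.mk' ((centralizer ((R.map L.subtype : Subgroup G) : Set G)).subgroupOf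
    (normalizer ((R.map L.subtype : Subgroup G) : Set G)))).comp φ
  have hker : (centralizer (R : Set L)).subgroupOf (normalizer (R : Set L)) = ψ.ker := by
    ext x
    rw [MonoidHom.mem_ker]
    show _ ↔ QuotientGroup.mk' _ (φ x) = 1
    rw [show (QuotientGroup.mk' ((centralizer ((R.map L.subtype : Subgroup G) : Set G)).subgroupOf
      (normalizer ((R.map L.subtype : Subgroup G) : Set G))) (φ x) = 1) ↔ _ from QuotientGroup.eq_one_iff (φ x)]
    rw [mem_subgroupOf, mem_subgroupOf, mem_centralizer_iff, mem_centralizer_iff]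
    constructor
    · rintro hx _ ⟨r, hr, rfl⟩
      exact congrArg Subtype.val (hx r hr)
    · intro hx r hr
      exact Subtype.ext (hx _ ⟨r, hr, rfl⟩)
  have h2 : IsPSolvable p ψ.range := PSolvTools.isPSolvable_subgroup hp h1 _
  have e : (↥(normalizer (R : Set L)) ⧸ (centralizer (R : Set L)).subgroupOf (normalizer (R : Set L))) ≃* ψ.range :=
    (QuotientGroup.quotientMulEquivOfEq hker).trans (QuotientGroup.quotientKerEquivRange ψ)
  exact PConstraint.isPSolvable_of_surjective (f := e.symm.toMonoidHom) hp e.symm.surjective h2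

theorem hyp_quot {G G' : Type u} [Group G] [Finite G] [Group G'] {p : ℕ} (hp : p.Prime) (h : Hyp p G)
    (f : G →* G') (hf : Function.Surjective f) (hk : IsPGroup p f.ker) : Hyp p G' := by
  intro R hR
  have hRc : IsPGroup p (R.comap f) := hR.comap_of_ker_isPGroup f hk
  have h1 := h (R.comap f) hRc
  have hmem : ∀ x : ↥(normalizer ((R.comap f : Subgroup G) : Set G)), f x ∈ normalizer (R : Set G') := by
    intro x
    rw [← mem_comap, comap_normalizer_eq_of_surjective R hf]
    exact x.2
  let φ : ↥(normalizer ((R.comap f : Subgroup G) : Set G)) →* ↥(normalizer (R : Set G')) :=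
    { toFun := fun x => ⟨f (x : G), hmem x⟩
      map_one' := Subtype.ext (map_one f)
      map_mul' := fun a b => Subtype.ext (map_mul f (a : G) (b : G)) }
  have hφ : Function.Surjective φ := by
    rintro ⟨y, hy⟩
    obtain ⟨x, rfl⟩ := hf y
    refine ⟨⟨x, ?_⟩, rfl⟩
    rw [← comap_normalizer_eq_of_surjective R hf, mem_comap]
    exact hy
  let ψ := (QuotientGroup.mk' ((centralizer (R : Set G')).subgroupOf (normalizer (R : Set G')))).comp φ
  have hψ : Function.Surjective ψ := (QuotientGroup.mk'_surjective _).comp hφ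
  have hle : (centralizer ((R.comap f : Subgroup G) : Set G)).subgroupOf (normalizer ((R.comap f : Subgroup G) : Set G)) ≤ ψ.ker := by
    intro x hx
    rw [MonoidHom.mem_ker]
    show QuotientGroup.mk' _ (φ x) = 1
    refine (QuotientGroup.eq_one_iff (φ x)).mpr ?_
    rw [mem_subgroupOf, mem_centralizer_iff]
    intro r hr
    obtain ⟨s, rfl⟩ := hf r
    have h3 := (mem_centralizer_iff.mp (mem_subgroupOf.mp hx)) s hr
    show f s * f x = f x * f s
    rw [← map_mul, ← map_mul, h3]
  refine PConstraint.isPSolvable_of_surjective (f := QuotientGroup.lift _ ψ hle) hp ?_ h1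
  exact QuotientGroup.lift_surjective_of_surjective _ ψ hψ hle

theorem qa_sub {G : Type u} [Group G] {q : ℕ} {L : Subgroup G} {K : Subgroup L} (h : QA q K) :
    QA q (K.map L.subtype) := by
  obtain ⟨y, hyN, hyC, hy⟩ := h
  refine ⟨y, ?_, ?_, isPElem_map L.subtype hy⟩
  · have h1 := le_normalizer_map L.subtype ⟨y, hyN, rfl⟩
    exact h1
  · intro hC
    apply hyC
    rw [mem_centralizer_iff] at hC ⊢
    intro r hr
    exact Subtype.ext (hC _ ⟨r, hr, rfl⟩)

theorem qa_pull {G G' : Type u} [Group G] [Finite G] [Group G'] {q : ℕ} [hq : Fact q.Prime]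
    (f : G →* G') (hf : Function.Surjective f) {K : Subgroup G'} (h : QA q K) : QA q (K.comap f) := by
  obtain ⟨y, hyN, hyC, hy⟩ := h
  let φ : ↥(normalizer ((K.comap f : Subgroup G) : Set G)) →* ↥(normalizer (K : Set G')) :=
    { toFun := fun x => ⟨f (x : G), by
        rw [← mem_comap, comap_normalizer_eq_of_surjective K hf]
        exact x.2⟩
      map_one' := Subtype.ext (map_one f)
      map_mul' := fun a b => Subtype.ext (map_mul f (a : G) (b : G)) }
  have hφ : Function.Surjective φ := by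
    rintro ⟨y, hy⟩
    obtain ⟨x, rfl⟩ := hf y
    refine ⟨⟨x, ?_⟩, rfl⟩
    rw [← comap_normalizer_eq_of_surjective K hf, mem_comap]
    exact hy
  have hy' : IsPElem q (⟨y, hyN⟩ : ↥(normalizer (K : Set G'))) := by
    obtain ⟨j, hj⟩ := hy
    exact ⟨j, Subtype.ext hj⟩
  obtain ⟨x, hx1, hx2⟩ := exists_lift_pElem (p := q) φ hφ hy'
  refine ⟨x, x.2, ?_, isPElem_map (normalizer ((K.comap f : Subgroup G) : Set G)).subtype hx2⟩
  intro hC
  apply hyC
  have hxy : f x = y := congrArg Subtype.val hx1
  rw [mem_centralizer_iff] at hC ⊢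
  intro r hr
  obtain ⟨s, rfl⟩ := hf r
  rw [← hxy, ← map_mul, ← map_mul, hC s hr]

end Cfsg.Agent.Lib.AutQ3
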