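import Mathlib
import Cfsg.Agent.Lib.AutQ3
import Cfsg.Agent.Lib.GroupUtil

/-!
# q-elements acting on p-subgroups: the main theorem (helper51)
-/

set_option autoImplicit false

namespace Cfsg.Agent.Lib.AutQ4

open Subgroup Cfsg
open scoped Pointwise
open Cfsg.Agent.Lib Cfsg.Agent.Lib.SubgroupTools Cfsg.Agent.Lib.AutQ1 Cfsg.Agent.Lib.AutQ2 Cfsg.Agent.Lib.AutQ3
open Cfsg.Agent.Lib.QdFree (IsPElem exists_lift_pElem isPElem_map)

universe u

/-- exponent of the `p`-part -/
noncomputable def vp (p : ℕ) {G : Type*} [Group G] (L : Subgroup G) : ℕ := (Nat.card L).factorization p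

theorem vp_mono {p : ℕ} {G : Type*} [Group G] [Finite G] {A B : Subgroup G} (h : A ≤ B) : vp p A ≤ vp p B :=
  (Nat.factorization_le_iff_dvd Nat.card_pos.ne' Nat.card_pos.ne').mpr (card_dvd_of_le h) p

theorem vp_syl {p : ℕ} [Fact p.Prime] {G : Type*} [Group G] [Finite G] {P L : Subgroup G}
    (h : RelSylow.IsSyl p P L) : vp p P = vp p L := by
  unfold vp
  have h1 := Subgroup.card_mul_index (P.subgroupOf L)
  have h2 : Nat.card (P.subgroupOf L) = Nat.card P :=
    Nat.card_congr (subgroupOfEquivOfLe h.1).toEquiv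
  rw [h2] at h1
  have h3 : (P.subgroupOf L).index ≠ 0 := index_ne_zero_of_finite
  rw [← h1, Nat.factorization_mul Nat.card_pos.ne' h3]
  have h4 : ((P.subgroupOf L).index).factorization p = 0 := Nat.factorization_eq_zero_of_not_dvd h.2.2
  simp [h4]

theorem vp_lt {p : ℕ} [hp : Fact p.Prime] {G : Type*} [Group G] [Finite G] {P Q : Subgroup G}
    (hP : IsPGroup p P) (hQ : IsPGroup p Q) (h : P < Q) : vp p P < vp p Q := by
  unfold vp
  obtain ⟨a, ha⟩ := IsPGroup.iff_card.mp hP
  obtain ⟨b, hb⟩ := IsPGroup.iff_card.mp hQ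
  rw [ha, hb, hp.out.factorization_pow, hp.out.factorization_pow, Finsupp.single_eq_same, Finsupp.single_eq_same]
  have h1 : Nat.card P < Nat.card Q := by
    refine lt_of_le_of_ne (Subgroup.card_le_of_le h.le) ?_
    intro h2
    exact h.ne (Subgroup.eq_of_le_of_card_ge h.le h2.ge)
  rw [ha, hb] at h1
  exact (Nat.pow_lt_pow_iff_right hp.out.one_lt).mp h1

theorem normalizer_le_centralizer {G : Type*} [Group G] (H : Subgroup G) :
    normalizer (H : Set G) ≤ normalizer ((centralizer (H : Set G) : Subgroup G) : Set G) := by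
  have h1 : ((centralizer (H : Set G)).subgroupOf (normalizer (H : Set G))).Normal := inferInstance
  exact (normal_subgroupOf_iff_le_normalizer (centralizer_le_normalizer _)).mp h1

theorem normalizer_inf_le {G : Type*} [Group G] {A B : Subgroup G} {g : G} (hA : g ∈ normalizer (A : Set G))
    (hB : g ∈ normalizer (B : Set G)) : g ∈ normalizer ((A ⊓ B : Subgroup G) : Set G) := by
  rw [mem_normalizer_iff] at *
  intro h
  rw [mem_inf, mem_inf, hA h, hB h]

theorem normalizer_sup_le {G : Type*} [Group G] {A B : Subgroup G} {g : G} (hA : g ∈ normalizer (A : Set G))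
    (hB : g ∈ normalizer (B : Set G)) : g ∈ normalizer ((A ⊔ B : Subgroup G) : Set G) := by
  rw [RelSylow.mem_normalizer_iff_map] at *
  rw [Subgroup.map_sup, hA, hB]

/-- QA is invariant under conjugation. -/
theorem qa_conj {G : Type*} [Group G] {q : ℕ} {K : Subgroup G} (h : QA q K) (g : G) :
    QA q (K.map (MulAut.conj g).toMonoidHom) := by
  obtain ⟨y, hyN, hyC, hy⟩ := h
  refine ⟨(MulAut.conj g).toMonoidHom y, ?_, ?_, isPElem_map _ hy⟩
  · exact le_normalizer_map _ ⟨y, hyN, rfl⟩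
  · intro hC
    apply hyC
    rw [mem_centralizer_iff] at hC ⊢
    intro r hr
    have h1 := hC _ ⟨r, hr, rfl⟩
    have h2 : (MulAut.conj g).toMonoidHom (r * y) = (MulAut.conj g).toMonoidHom (y * r) := by
      rw [map_mul, map_mul]; exact h1
    exact (MulAut.conj g).injective h2

theorem commute_of_quot {G : Type*} [Group G] {p q : ℕ} [hp : Fact p.Prime] [hq : Fact q.Prime] (hpq : p ≠ q)
    {K0 : Subgroup G} (hK : IsPGroup p K0) {w h : G} (hw : IsPElem q w) (hwK : w ∈ centralizer (K0 : Set G))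
    (hk : h⁻¹ * (w * h * w⁻¹) ∈ K0) : w * h = h * w := by
  set k := h⁻¹ * (w * h * w⁻¹) with hkd
  have h1 : w * h * w⁻¹ = h * k := by rw [hkd]; group
  have hwk : k * w = w * k := mem_centralizer_iff.mp hwK k hk
  have h2 : ∀ n : ℕ, w ^ n * h * (w ^ n)⁻¹ = h * k ^ n := by
    intro n
    induction n with
    | zero => simp
    | succ n ihn =>
      have h3 : w ^ (n + 1) * h * (w ^ (n + 1))⁻¹ = w * (w ^ n * h * (w ^ n)⁻¹) * w⁻¹ := by
        rw [pow_succ']; group
      rw [h3, ihn]
      have h4 : w * (h * k ^ n) * w⁻¹ = (w * h * w⁻¹) * (w * k ^ n * w⁻¹) := by group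
      have h5 : w * k ^ n = k ^ n * w := by
        have : Commute k w := hwk
        exact (this.pow_left n).symm
      rw [h4, h1, h5, pow_succ']
      group
  obtain ⟨j, hj⟩ := hw
  have h3 := h2 (q ^ j)
  rw [hj] at h3
  have h4 : k ^ q ^ j = 1 := by
    have : h = h * k ^ q ^ j := by simpa using h3
    exact mul_left_cancel (a := h) (by rw [mul_one]; exact this.symm)
  obtain ⟨i, hi⟩ := hK ⟨k, hk⟩
  have h5 : k ^ p ^ i = 1 := congrArg Subtype.val hi
  have h6 : k = 1 := by
    rw [← orderOf_eq_one_iff]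
    exact Nat.eq_one_of_dvd_coprimes (Nat.Coprime.pow _ _ ((Nat.coprime_primes hp.out hq.out).mpr hpq))
      (orderOf_dvd_of_pow_eq_one h5) (orderOf_dvd_of_pow_eq_one h4)
  rw [h6, mul_one] at h1
  calc w * h = (w * h * w⁻¹) * w := by group
    _ = h * w := by rw [h1]

/-- the key local step: a characteristic subgroup of a Sylow subgroup of the normalizer -/
theorem local_step {G : Type u} [Group G] [Finite G] {p q : ℕ} [hp : Fact p.Prime] [hq : Fact q.Prime]
    (hpq : p ≠ q) (h23 : ¬ ((p = 2 ∧ q = 3) ∨ (p = 3 ∧ q = 2))) (hyp : Hyp p G) {H P0 : Subgroup G}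
    (hHp : IsPGroup p H) (hHq : QA q H) (hP0 : RelSylow.IsSyl p P0 (normalizer (H : Set G)))
    (hcent : P0 ⊓ centralizer (H : Set G) ≤ H) :
    ∃ K0 ≤ P0, K0 ≠ ⊥ ∧ normalizer (P0 : Set G) ≤ normalizer (K0 : Set G) ∧
      ∃ w ∈ normalizer (K0 : Set G), w ∈ normalizer (H : Set G) ∧ IsPElem q w ∧ w ∉ centralizer (H : Set G) := by
  obtain ⟨PM, hPM1, hPM2⟩ := hP0.exists_sylow
  have hHle : H ≤ normalizer (H : Set G) := le_normalizer
  have hHn : (H.subgroupOf (normalizer (H : Set G))).Normal := inferInstance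
  have hCe : centralizer ((H.subgroupOf (normalizer (H : Set G)) : Subgroup ↥(normalizer (H : Set G))) :
      Set ↥(normalizer (H : Set G))) = (centralizer (H : Set G)).subgroupOf (normalizer (H : Set G)) := by
    ext x
    rw [mem_subgroupOf, mem_centralizer_iff, mem_centralizer_iff]
    constructor
    · intro hx h hh
      exact congrArg Subtype.val (hx ⟨h, hHle hh⟩ hh)
    · intro hx h hh
      exact Subtype.ext (hx h hh)
  have hHp' : IsPGroup p (H.subgroupOf (normalizer (H : Set G))) :=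
    hHp.comap_of_injective _ (normalizer (H : Set G)).subtype_injective
  have hc' : (PM : Subgroup ↥(normalizer (H : Set G))) ⊓
      centralizer ((H.subgroupOf (normalizer (H : Set G)) : Subgroup ↥(normalizer (H : Set G))) :
      Set ↥(normalizer (H : Set G))) ≤ H.subgroupOf (normalizer (H : Set G)) := by
    rw [hCe, hPM2]
    intro x hx
    exact hcent ⟨hx.1, hx.2⟩
  have hps : IsPSolvable p (↥(normalizer (H : Set G)) ⧸
      centralizer ((H.subgroupOf (normalizer (H : Set G)) : Subgroup ↥(normalizer (H : Set G))) :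
      Set ↥(normalizer (H : Set G)))) := by
    have e := QuotientGroup.quotientMulEquivOfEq hCe.symm
    exact PConstraint.isPSolvable_of_surjective (f := e.toMonoidHom) hp.out e.surjective (hyp H hHp)
  have hy : ∃ y : ↥(normalizer (H : Set G)), IsPElem q y ∧
      y ∉ centralizer ((H.subgroupOf (normalizer (H : Set G)) : Subgroup ↥(normalizer (H : Set G))) :
      Set ↥(normalizer (H : Set G))) := by
    obtain ⟨y, hyN, hyC, j, hj⟩ := hHq
    refine ⟨⟨y, hyN⟩, ⟨j, Subtype.ext hj⟩, ?_⟩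
    rw [hCe]
    exact hyC
  obtain ⟨Kc, hKc, hKcb, w, hwN, hwq, hwC⟩ := exists_char hpq h23 (H.subgroupOf (normalizer (H : Set G))) hHp' PM
    hc' hps hy
  rw [hCe] at hwC
  let e : ↥(PM : Subgroup ↥(normalizer (H : Set G))) ≃* ↥P0 :=
    ((PM : Subgroup ↥(normalizer (H : Set G))).equivMapOfInjective (normalizer (H : Set G)).subtype
      (normalizer (H : Set G)).subtype_injective).trans (MulEquiv.subgroupCongr hPM1)
  have hev : ∀ x, ((e x : ↥P0) : G) = ((x : ↥(normalizer (H : Set G))) : G) := fun x => rfl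
  have hKd : (Kc.map e.toMonoidHom).Characteristic := char_map_equiv e hKc
  have hK0 : (Kc.map (PM : Subgroup ↥(normalizer (H : Set G))).subtype).map (normalizer (H : Set G)).subtype =
      (Kc.map e.toMonoidHom).map P0.subtype := by
    rw [map_map, map_map]
    congr 1
  refine ⟨(Kc.map (PM : Subgroup ↥(normalizer (H : Set G))).subtype).map (normalizer (H : Set G)).subtype, ?_, ?_, ?_,
    w, ?_, w.2, isPElem_map (normalizer (H : Set G)).subtype hwq, hwC⟩
  · rw [hK0]
    exact map_subtype_le _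
  · intro h0
    apply hKcb
    rw [map_eq_bot_iff_of_injective _ (normalizer (H : Set G)).subtype_injective,
      map_eq_bot_iff_of_injective _ (PM : Subgroup ↥(normalizer (H : Set G))).subtype_injective] at h0
    exact h0
  · rw [hK0]
    exact HallNorm.normalizer_le_normalizer_map_subtype hKd
  · exact le_normalizer_map (normalizer (H : Set G)).subtype ⟨w, hwN, rfl⟩

theorem main {p q : ℕ} [hp : Fact p.Prime] [hq : Fact q.Prime]
    (hpq : p ≠ q) (h23 : ¬ ((p = 2 ∧ q = 3) ∨ (p = 3 ∧ q = 2))) : ∀ (n : ℕ) {G : Type u} [Group G] [Finite G],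
    Nat.card G = n → Hyp p G → (∃ H : Subgroup G, IsPGroup p H ∧ QA q H) →
    ∀ P1 : Subgroup G, RelSylow.IsSyl p P1 ⊤ → ∃ K ≤ P1, P1 ≤ normalizer (K : Set G) ∧ QA q K := by
  intro n
  induction n using Nat.strong_induction_on with
  | _ n ih =>
  intro G _ _ hn hyp hex P1 hP1
  obtain ⟨H, ⟨hHp, hHq⟩, hmax⟩ := Set.exists_max_image {H : Subgroup G | IsPGroup p H ∧ QA q H}
    (fun H => vp p (normalizer (H : Set G)) * (Nat.card G + 1) + Nat.card H) (Set.toFinite _) hex
  have hmax1 : ∀ K : Subgroup G, IsPGroup p K → QA q K → vp p (normalizer (K : Set G)) ≤ vp p (normalizer (H : Set G)) := by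
    intro K hK1 hK2
    by_contra hlt
    push Not at hlt
    have h1 : vp p (normalizer (K : Set G)) * (Nat.card G + 1) + Nat.card K ≤
        vp p (normalizer (H : Set G)) * (Nat.card G + 1) + Nat.card H := hmax K ⟨hK1, hK2⟩
    have h2 : Nat.card H ≤ Nat.card G := Subgroup.card_le_card_group H
    nlinarith
  have hmax2 : ∀ K : Subgroup G, IsPGroup p K → QA q K → vp p (normalizer (H : Set G)) ≤ vp p (normalizer (K : Set G)) →
      Nat.card K ≤ Nat.card H := by
    intro K hK1 hK2 hK3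
    have h1 : vp p (normalizer (K : Set G)) * (Nat.card G + 1) + Nat.card K ≤
        vp p (normalizer (H : Set G)) * (Nat.card G + 1) + Nat.card H := hmax K ⟨hK1, hK2⟩
    have h2 : vp p (normalizer (H : Set G)) = vp p (normalizer (K : Set G)) := le_antisymm hK3 (hmax1 K hK1 hK2)
    rw [h2] at h1
    omega
  suffices hs : ∃ K P : Subgroup G, RelSylow.IsSyl p P ⊤ ∧ K ≤ P ∧ P ≤ normalizer (K : Set G) ∧ QA q K by
    obtain ⟨K, P, hP, hKP, hPK, hQ⟩ := hs
    obtain ⟨g, -, hg⟩ := hP.conj hP1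
    refine ⟨K.map (MulAut.conj g).toMonoidHom, ?_, ?_, qa_conj hQ g⟩
    · rw [← hg]; exact map_mono hKP
    · rw [← hg]
      exact (map_mono hPK).trans (le_normalizer_map _)
  obtain ⟨P0, hHP0, hP0⟩ := RelSylow.exists_isSyl_ge hHp (le_normalizer : H ≤ normalizer (H : Set G))
  by_cases hS : RelSylow.IsSyl p P0 ⊤
  · exact ⟨H, P0, hS, hHP0, hP0.1, hHq⟩
  exfalso
  -- Step B
  have hCN : centralizer (H : Set G) ≤ normalizer (H : Set G) := centralizer_le_normalizer _
  have hHC : normalizer (H : Set G) ≤ normalizer ((H ⊔ centralizer (H : Set G) : Subgroup G) : Set G) :=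
    fun g hg => normalizer_sup_le hg (normalizer_le_centralizer H hg)
  have hT := hP0.inf (sup_le le_normalizer hCN) hHC
  have hHT : H ≤ P0 ⊓ (H ⊔ centralizer (H : Set G)) := le_inf hHP0 le_sup_left
  have hP0T : P0 ≤ normalizer ((P0 ⊓ (H ⊔ centralizer (H : Set G)) : Subgroup G) : Set G) :=
    fun g hg => normalizer_inf_le (le_normalizer hg) (hHC (hP0.1 hg))
  have hQT : QA q (P0 ⊓ (H ⊔ centralizer (H : Set G))) := by
    obtain ⟨y, hyN, hyC, j, hj⟩ := hHq
    set N1 : Subgroup G := normalizer (H : Set G) ⊓ normalizer ((P0 ⊓ (H ⊔ centralizer (H : Set G)) : Subgroup G) : Set G)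
      with hN1
    let φ : ↥N1 →* ↥(normalizer (H : Set G)) ⧸ (centralizer (H : Set G)).subgroupOf (normalizer (H : Set G)) :=
      (QuotientGroup.mk' _).comp (inclusion (inf_le_left : N1 ≤ normalizer (H : Set G)))
    have hφ : Function.Surjective φ := by
      intro z
      obtain ⟨⟨g, hg⟩, rfl⟩ := QuotientGroup.mk'_surjective _ z
      obtain ⟨m, hm, x, hx, hgx⟩ := hT.frattini hHC hg
      have hm' : ∃ c ∈ centralizer (H : Set G), ∃ h ∈ H, m = c * h := by
        rw [sup_comm, ← SetLike.mem_coe, coe_mul_of_right_le_normalizer_left _ _ (le_normalizer.trans (normalizer_le_centralizer H))] at hm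
        obtain ⟨c, hc, h, hh, rfl⟩ := hm
        exact ⟨c, hc, h, hh, rfl⟩
      obtain ⟨c, hc, h, hh, rfl⟩ := hm'
      have hx' : h * x ∈ N1 := by
        refine mem_inf.mpr ⟨?_, mul_mem (le_normalizer (hHT hh)) hx⟩
        have : h * x = c⁻¹ * g := by rw [hgx]; group
        rw [this]
        exact mul_mem (inv_mem (hCN hc)) hg
      refine ⟨⟨h * x, hx'⟩, ?_⟩
      show QuotientGroup.mk' _ _ = QuotientGroup.mk' _ _
      refine (QuotientGroup.mk'_eq_mk' _).mpr ?_
      refine ⟨⟨x⁻¹ * h⁻¹ * c * h * x, ?_⟩, ?_, ?_⟩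
      · have : x⁻¹ * h⁻¹ * c * h * x = (h * x)⁻¹ * c * (h * x) := by group
        rw [this]
        exact mul_mem (mul_mem (inv_mem hx'.1) (hCN hc)) hx'.1
      · rw [mem_subgroupOf]
        show x⁻¹ * h⁻¹ * c * h * x ∈ centralizer (H : Set G)
        have : x⁻¹ * h⁻¹ * c * h * x = (h * x)⁻¹ * c * ((h * x)⁻¹)⁻¹ := by group
        rw [this]
        exact (mem_normalizer_iff.mp (inv_mem (normalizer_le_centralizer H hx'.1)) c).mp hc
      · apply Subtype.ext
        show h * x * (x⁻¹ * h⁻¹ * c * h * x) = g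
        rw [hgx]; group
    obtain ⟨x, hx1, hx2⟩ := exists_lift_pElem (p := q) φ hφ
      (y := QuotientGroup.mk' ((centralizer (H : Set G)).subgroupOf (normalizer (H : Set G))) ⟨y, hyN⟩)
      (isPElem_map _ ⟨j, Subtype.ext hj⟩)
    refine ⟨x, x.2.2, ?_, isPElem_map N1.subtype hx2⟩
    intro hxC
    have hxC' : (x : G) ∈ centralizer (H : Set G) := centralizer_le hHT hxC
    have h1 : φ x = 1 := (QuotientGroup.eq_one_iff (⟨x, x.2.1⟩ : ↥(normalizer (H : Set G)))).mpr hxC'
    rw [hx1] at h1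
    exact hyC ((QuotientGroup.eq_one_iff (⟨y, hyN⟩ : ↥(normalizer (H : Set G)))).mp h1)
  have hvT : vp p (normalizer (H : Set G)) ≤ vp p (normalizer ((P0 ⊓ (H ⊔ centralizer (H : Set G)) : Subgroup G) : Set G)) := by
    rw [← vp_syl hP0]; exact vp_mono hP0T
  have hTH : H = P0 ⊓ (H ⊔ centralizer (H : Set G)) :=
    Subgroup.eq_of_le_of_card_ge hHT (hmax2 _ hT.2.1 hQT hvT)
  have hcent : P0 ⊓ centralizer (H : Set G) ≤ H := by
    conv_rhs => rw [hTH]
    exact inf_le_inf le_rfl le_sup_right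
  obtain ⟨K0, hK0P, hK0b, hK0N, w, hwK, hwN, hwq, hwC⟩ := local_step hpq h23 hyp hHp hHq hP0 hcent
  -- Step D
  have hK0p : IsPGroup p K0 := hP0.2.1.to_le hK0P
  have hv : vp p (normalizer (H : Set G)) < vp p (normalizer (K0 : Set G)) := by
    obtain ⟨S, hPS, hSS⟩ := RelSylow.exists_isSyl_ge hP0.2.1 (le_top : P0 ≤ ⊤)
    have hlt : P0 < S := lt_of_le_of_ne hPS (fun h => hS (h ▸ hSS))
    have h1 := GroupUtil.lt_inf_normalizer_of_isPGroup hSS.2.1 hlt
    rw [← vp_syl hP0]
    refine (vp_lt hP0.2.1 (hSS.2.1.to_le inf_le_left) h1).trans_le (vp_mono (inf_le_right.trans hK0N))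
  have hnoQ : ¬ QA q K0 := fun h => absurd (hmax1 K0 hK0p h) (not_le.mpr hv)
  have hKn : (K0.subgroupOf (normalizer (K0 : Set G))).Normal := inferInstance
  have hK0L : K0 ≤ normalizer (K0 : Set G) := le_normalizer
  let f : ↥(normalizer (K0 : Set G)) →* ↥(normalizer (K0 : Set G)) ⧸ K0.subgroupOf (normalizer (K0 : Set G)) :=
    QuotientGroup.mk' _
  have hf : Function.Surjective f := QuotientGroup.mk'_surjective _
  have hf1 : ∀ x, f x = 1 ↔ (x : G) ∈ K0 := fun x => QuotientGroup.eq_one_iff x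
  have hfk : IsPGroup p f.ker := by
    have h1 : f.ker = K0.subgroupOf (normalizer (K0 : Set G)) := QuotientGroup.ker_mk' _
    rw [h1]
    exact hK0p.comap_of_injective _ (normalizer (K0 : Set G)).subtype_injective
  have hypL : Hyp p (↥(normalizer (K0 : Set G)) ⧸ K0.subgroupOf (normalizer (K0 : Set G))) :=
    hyp_quot hp.out (hyp_sub hp.out hyp _) f hf hfk
  have hcard : Nat.card (↥(normalizer (K0 : Set G)) ⧸ K0.subgroupOf (normalizer (K0 : Set G))) < n := by
    have h1 := Subgroup.card_mul_index (K0.subgroupOf (normalizer (K0 : Set G)))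
    have h2 : Nat.card (K0.subgroupOf (normalizer (K0 : Set G))) = Nat.card K0 :=
      Nat.card_congr (subgroupOfEquivOfLe hK0L).toEquiv
    have h3 : 1 < Nat.card K0 := (Subgroup.one_lt_card_iff_ne_bot K0).mpr hK0b
    have h4 : Nat.card ↥(normalizer (K0 : Set G)) ≤ Nat.card G := Subgroup.card_le_card_group _
    have h5 : 0 < (K0.subgroupOf (normalizer (K0 : Set G))).index := Nat.pos_of_ne_zero index_ne_zero_of_finite
    rw [h2] at h1
    show (K0.subgroupOf (normalizer (K0 : Set G))).index < n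
    rw [← hn]
    nlinarith
  -- no `q`-action on `p`-subgroups of `L / K0`
  have hnoR : ∀ R : Subgroup (↥(normalizer (K0 : Set G)) ⧸ K0.subgroupOf (normalizer (K0 : Set G))),
      IsPGroup p R → ¬ QA q R := by
    intro R hR hRq
    obtain ⟨S, hSS⟩ := RelSylow.exists_syl p (⊤ : Subgroup ↥(normalizer (K0 : Set G)))
    have hSf := hSS.map f
    rw [← MonoidHom.range_eq_map, MonoidHom.range_eq_top.mpr hf] at hSf
    obtain ⟨Kb, hKbS, hSKb, hQKb⟩ := ih _ hcard rfl hypL ⟨R, hR, hRq⟩ _ hSf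
    have hK1p : IsPGroup p (Kb.comap f) := (hSf.2.1.to_le hKbS).comap_of_ker_isPGroup f hfk
    have hSN : S ≤ normalizer ((Kb.comap f : Subgroup ↥(normalizer (K0 : Set G))) : Set ↥(normalizer (K0 : Set G))) := by
      rw [← comap_normalizer_eq_of_surjective Kb hf]
      exact map_le_iff_le_comap.mp hSKb
    have h1 := hmax1 ((Kb.comap f).map (normalizer (K0 : Set G)).subtype) (hK1p.map _) (qa_sub (qa_pull f hf hQKb))
    have h2 : S.map (normalizer (K0 : Set G)).subtype ≤
        normalizer (((Kb.comap f).map (normalizer (K0 : Set G)).subtype : Subgroup G) : Set G) :=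
      (map_mono hSN).trans (le_normalizer_map _)
    have h3 : RelSylow.IsSyl p (S.map (normalizer (K0 : Set G)).subtype) (normalizer (K0 : Set G)) := by
      have := hSS.map (normalizer (K0 : Set G)).subtype
      rwa [← MonoidHom.range_eq_map, range_subtype] at this
    have h4 := vp_mono (p := p) h2
    rw [vp_syl h3] at h4
    omega
  -- conclusion
  apply hwC
  have hwK0 : w ∈ centralizer (K0 : Set G) := by
    by_contra h
    exact hnoQ ⟨w, hwK, h, hwq⟩
  have hHL : H ≤ normalizer (K0 : Set G) := (hHP0.trans le_normalizer).trans hK0N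
  have hwb : f ⟨w, hwK⟩ ∈ centralizer (((H.subgroupOf (normalizer (K0 : Set G))).map f :
      Subgroup (↥(normalizer (K0 : Set G)) ⧸ K0.subgroupOf (normalizer (K0 : Set G)))) : Set _) := by
    by_contra h
    refine hnoR ((H.subgroupOf (normalizer (K0 : Set G))).map f)
      ((hHp.comap_of_injective _ (normalizer (K0 : Set G)).subtype_injective).map _) ⟨f ⟨w, hwK⟩, ?_, h, ?_⟩
    · refine le_normalizer_map f ⟨⟨w, hwK⟩, ?_, rfl⟩
      exact le_normalizer_comap (normalizer (K0 : Set G)).subtype hwN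
    · obtain ⟨j, hj⟩ := hwq
      exact isPElem_map f ⟨j, Subtype.ext hj⟩
  rw [mem_centralizer_iff]
  intro h hh
  refine (commute_of_quot hpq hK0p hwq hwK0 ?_).symm
  have h1 := mem_centralizer_iff.mp hwb (f ⟨h, hHL hh⟩) ⟨⟨h, hHL hh⟩, hh, rfl⟩
  have h2 : f (⟨h, hHL hh⟩⁻¹ * (⟨w, hwK⟩ * ⟨h, hHL hh⟩ * ⟨w, hwK⟩⁻¹)) = 1 := by
    rw [map_mul, map_mul, map_mul, map_inv, map_inv, ← h1]
    group
  exact (hf1 _).mp h2

end Cfsg.Agent.Lib.AutQ4
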