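import Mathlib
import Cfsg.Agent.Lib.RepSchur

/-!
# Averages of a representation over families, traces, Fourier idempotents (helper83)
-/

set_option autoImplicit false
set_option linter.all false

namespace Cfsg.Agent.Lib.AvgTrace

variable {G : Type*} [Group G] {V : Type*} [AddCommGroup V] [Module ℂ V]

/-- the average of the operators of a family -/
noncomputable def av (ρ : Representation ℂ G V) {A : Type*} [Fintype A] (u : A → G) : V →ₗ[ℂ] V :=
  (Fintype.card A : ℂ)⁻¹ • ∑ a, ρ (u a)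

theorem rho_inv_mul (ρ : Representation ℂ G V) (g : G) : ρ g⁻¹ * ρ g = 1 := by
  rw [← map_mul, inv_mul_cancel, map_one]

theorem rho_mul_inv (ρ : Representation ℂ G V) (g : G) : ρ g * ρ g⁻¹ = 1 := by
  rw [← map_mul, mul_inv_cancel, map_one]

theorem av_conj (ρ : Representation ℂ G V) {A : Type*} [Fintype A] (u : A → G) (g : G) :
    ρ g * av ρ u * ρ g⁻¹ = av ρ (fun a => g * u a * g⁻¹) := by
  unfold av
  rw [mul_smul_comm, smul_mul_assoc, Finset.mul_sum, Finset.sum_mul]
  congr 1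
  exact Finset.sum_congr rfl fun a _ => by rw [map_mul, map_mul]

theorem av_equiv (ρ : Representation ℂ G V) {A B : Type*} [Fintype A] [Fintype B] (σ : A ≃ B) (u : B → G) :
    av ρ (fun a => u (σ a)) = av ρ u := by
  unfold av
  rw [Fintype.card_congr σ, Equiv.sum_comp σ (fun b => ρ (u b))]

theorem av_prod (ρ : Representation ℂ G V) {A B : Type*} [Fintype A] [Fintype B] (u : A → G) (w : B → G) :
    av ρ (fun p : A × B => u p.1 * w p.2) = av ρ u * av ρ w := by
  unfold av
  rw [mul_smul_comm, smul_mul_assoc, smul_smul, Finset.sum_mul_sum, Fintype.card_prod, Nat.cast_mul,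
    mul_inv_rev, Fintype.sum_prod_type]
  congr 1
  exact Finset.sum_congr rfl fun a _ => Finset.sum_congr rfl fun b _ => by rw [map_mul]

section hom

variable {A : Type*} [Fintype A] [AddCommGroup A] {u : A → G}

theorem rho_mul_av (ρ : Representation ℂ G V) (hu : ∀ a b, u (a + b) = u a * u b) (a : A) :
    ρ (u a) * av ρ u = av ρ u := by
  unfold av
  rw [mul_smul_comm, Finset.mul_sum]
  congr 1
  rw [← Equiv.sum_comp (Equiv.addLeft a) (fun b => ρ (u b))]
  exact Finset.sum_congr rfl fun b _ => by rw [← map_mul, ← hu]; rfl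

theorem av_mul_rho (ρ : Representation ℂ G V) (hu : ∀ a b, u (a + b) = u a * u b) (a : A) :
    av ρ u * ρ (u a) = av ρ u := by
  unfold av
  rw [smul_mul_assoc, Finset.sum_mul]
  congr 1
  rw [← Equiv.sum_comp (Equiv.addRight a) (fun b => ρ (u b))]
  exact Finset.sum_congr rfl fun b _ => by rw [← map_mul, ← hu]; rfl

theorem av_idem (ρ : Representation ℂ G V) (hu : ∀ a b, u (a + b) = u a * u b) :
    av ρ u * av ρ u = av ρ u := by
  conv_lhs => enter [1]; unfold av
  rw [smul_mul_assoc, Finset.sum_mul, Finset.sum_congr rfl (fun a _ => rho_mul_av ρ hu a), Finset.sum_const,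
    Finset.card_univ, ← Nat.cast_smul_eq_nsmul ℂ, smul_smul, inv_mul_cancel₀, one_smul]
  exact Nat.cast_ne_zero.2 Fintype.card_ne_zero

/-- the Fourier idempotents -/
noncomputable def ew (ρ : Representation ℂ G V) (u : A → G) (ψ : AddChar A ℂ) : V →ₗ[ℂ] V :=
  (Fintype.card A : ℂ)⁻¹ • ∑ a, ψ (-a) • ρ (u a)

theorem ew_zero (ρ : Representation ℂ G V) : ew ρ u (0 : AddChar A ℂ) = av ρ u := by
  unfold ew av
  congr 1
  exact Finset.sum_congr rfl fun a _ => by rw [AddChar.zero_apply, one_smul]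

theorem rho_mul_ew (ρ : Representation ℂ G V) (hu : ∀ a b, u (a + b) = u a * u b) (ψ : AddChar A ℂ) (a : A) :
    ρ (u a) * ew ρ u ψ = ψ a • ew ρ u ψ := by
  unfold ew
  rw [mul_smul_comm, smul_comm (ψ a), Finset.mul_sum, Finset.smul_sum (r := ψ a)]
  congr 1
  rw [← Equiv.sum_comp (Equiv.addLeft a) (fun b => ψ a • ψ (-b) • ρ (u b))]
  refine Finset.sum_congr rfl fun b _ => ?_
  simp only [Equiv.coe_addLeft]
  rw [mul_smul_comm, ← map_mul, ← hu, smul_smul, ← AddChar.map_add_eq_mul]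
  congr 2
  abel

theorem ew_mul_self (ρ : Representation ℂ G V) (hu : ∀ a b, u (a + b) = u a * u b) (ψ : AddChar A ℂ) :
    ew ρ u ψ * ew ρ u ψ = ew ρ u ψ := by
  conv_lhs => enter [1]; unfold ew
  rw [smul_mul_assoc, Finset.sum_mul]
  have h : ∀ a : A, ψ (-a) • ρ (u a) * ew ρ u ψ = ew ρ u ψ := by
    intro a
    rw [smul_mul_assoc, rho_mul_ew ρ hu, smul_smul, ← AddChar.map_add_eq_mul, neg_add_cancel,
      AddChar.map_zero_eq_one, one_smul]
  rw [Finset.sum_congr rfl (fun a _ => h a), Finset.sum_const,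
    Finset.card_univ, ← Nat.cast_smul_eq_nsmul ℂ, smul_smul, inv_mul_cancel₀, one_smul]
  exact Nat.cast_ne_zero.2 Fintype.card_ne_zero

theorem ew_mul_ne (ρ : Representation ℂ G V) (hu : ∀ a b, u (a + b) = u a * u b) {ψ φ : AddChar A ℂ} (h : ψ ≠ φ) :
    ew ρ u ψ * ew ρ u φ = 0 := by
  conv_lhs => enter [1]; unfold ew
  rw [smul_mul_assoc, Finset.sum_mul]
  have h1 : ∀ a : A, ψ (-a) • ρ (u a) * ew ρ u φ = (φ - ψ) a • ew ρ u φ := by
    intro a
    rw [smul_mul_assoc, rho_mul_ew ρ hu, smul_smul, AddChar.sub_apply, mul_comm, AddChar.map_neg_eq_inv,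
      ← div_eq_mul_inv]
  rw [Finset.sum_congr rfl (fun a _ => h1 a), ← Finset.sum_smul,
    AddChar.sum_eq_zero_iff_ne_zero.2 (sub_ne_zero.2 (Ne.symm h)), zero_smul, smul_zero]

theorem sum_ew (ρ : Representation ℂ G V) (h0 : u 0 = 1) : ∑ ψ : AddChar A ℂ, ew ρ u ψ = 1 := by
  classical
  unfold ew
  rw [← Finset.smul_sum, Finset.sum_comm]
  have h1 : ∀ a : A, ∑ ψ : AddChar A ℂ, ψ (-a) • ρ (u a) = if a = 0 then (Fintype.card A : ℂ) • 1 else 0 := by
    intro a
    rw [← Finset.sum_smul, AddChar.sum_apply_eq_ite]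
    by_cases ha : a = 0
    · rw [if_pos (by rw [ha, neg_zero]), if_pos ha, ha, h0, map_one]
    · rw [if_neg (by rwa [neg_eq_zero]), if_neg ha, zero_smul]
  rw [Finset.sum_congr rfl (fun a _ => h1 a), Finset.sum_ite_eq' Finset.univ (0 : A), if_pos (Finset.mem_univ _), smul_smul,
    inv_mul_cancel₀, one_smul]
  exact Nat.cast_ne_zero.2 Fintype.card_ne_zero

theorem ew_conj (ρ : Representation ℂ G V) {z : G} {σ : A ≃+ A} (hz : ∀ a, z * u a * z⁻¹ = u (σ a))
    (ψ : AddChar A ℂ) : ρ z * ew ρ u (ψ.compAddMonoidHom σ.toAddMonoidHom) * ρ z⁻¹ = ew ρ u ψ := by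
  unfold ew
  rw [mul_smul_comm, smul_mul_assoc, Finset.mul_sum, Finset.sum_mul]
  congr 1
  rw [← Equiv.sum_comp σ.toEquiv (fun b => ψ (-b) • ρ (u b))]
  refine Finset.sum_congr rfl fun b _ => ?_
  rw [mul_smul_comm, smul_mul_assoc, ← map_mul, ← map_mul, hz]
  rw [AddChar.compAddMonoidHom_apply]
  congr 2
  exact map_neg σ b

/-- the trace of a Fourier idempotent when the trace is constant on the non-zero elements -/
theorem trace_ew [FiniteDimensional ℂ V] (ρ : Representation ℂ G V) (h0 : u 0 = 1) (s : ℂ)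
    (hs : ∀ a, a ≠ 0 → LinearMap.trace ℂ V (ρ (u a)) = s) {ψ : AddChar A ℂ} (hψ : ψ ≠ 0) :
    LinearMap.trace ℂ V (ew ρ u ψ) = (Fintype.card A : ℂ)⁻¹ * (Module.finrank ℂ V - s) := by
  classical
  unfold ew
  rw [map_smul, map_sum, smul_eq_mul]
  congr 1
  have h1 : ∀ a : A, LinearMap.trace ℂ V (ψ (-a) • ρ (u a)) = ψ (-a) * s + if a = 0 then ((Module.finrank ℂ V : ℂ) - s) else 0 := by
    intro a
    rw [map_smul, smul_eq_mul]
    by_cases ha : a = 0
    · rw [if_pos ha, ha, h0, map_one, neg_zero, AddChar.map_zero_eq_one, LinearMap.trace_one, one_mul, one_mul]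
      ring
    · rw [if_neg ha, hs a ha, add_zero]
  rw [Finset.sum_congr rfl (fun a _ => h1 a), Finset.sum_add_distrib, Finset.sum_ite_eq' Finset.univ (0 : A),
    if_pos (Finset.mem_univ _), ← Finset.sum_mul]
  have h2 : ∑ a : A, ψ (-a) = 0 := by
    have h3 := Equiv.sum_comp (Equiv.neg A) (fun a => ψ a)
    simp only [Equiv.neg_apply] at h3
    rw [h3]
    exact AddChar.sum_eq_zero_iff_ne_zero.2 hψ
  rw [h2, zero_mul, zero_add]

theorem trace_av [FiniteDimensional ℂ V] (ρ : Representation ℂ G V) (h0 : u 0 = 1) (s : ℂ)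
    (hs : ∀ a, a ≠ 0 → LinearMap.trace ℂ V (ρ (u a)) = s) :
    LinearMap.trace ℂ V (av ρ u) = (Fintype.card A : ℂ)⁻¹ * (Module.finrank ℂ V + (Fintype.card A - 1) * s) := by
  classical
  unfold av
  rw [map_smul, map_sum, smul_eq_mul]
  congr 1
  have h1 : ∀ a : A, LinearMap.trace ℂ V (ρ (u a)) = s + if a = 0 then ((Module.finrank ℂ V : ℂ) - s) else 0 := by
    intro a
    by_cases ha : a = 0
    · rw [if_pos ha, ha, h0, map_one, LinearMap.trace_one]
      ring
    · rw [if_neg ha, hs a ha, add_zero]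
  rw [Finset.sum_congr rfl (fun a _ => h1 a), Finset.sum_add_distrib, Finset.sum_ite_eq' Finset.univ (0 : A),
    if_pos (Finset.mem_univ _), Finset.sum_const, Finset.card_univ, nsmul_eq_mul]
  ring

end hom

/-! ### idempotents -/

section idem

variable [FiniteDimensional ℂ V]

theorem trace_idem {e : V →ₗ[ℂ] V} (he : e * e = e) :
    LinearMap.trace ℂ V e = (Module.finrank ℂ (LinearMap.range e) : ℂ) :=
  (LinearMap.IsIdempotentElem.isProj_range e he).trace

theorem eq_zero_of_trace {e : V →ₗ[ℂ] V} (he : e * e = e) (h : LinearMap.trace ℂ V e = 0) : e = 0 := by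
  rw [trace_idem he, Nat.cast_eq_zero, Submodule.finrank_eq_zero, LinearMap.range_eq_bot] at h
  exact h

theorem eq_one_of_trace {e : V →ₗ[ℂ] V} (he : e * e = e) (h : LinearMap.trace ℂ V e = Module.finrank ℂ V) :
    e = 1 := by
  have h1 : (1 - e) * (1 - e) = 1 - e := by
    rw [mul_sub, sub_mul, sub_mul, he]
    simp
  have h2 : 1 - e = 0 := eq_zero_of_trace h1 (by rw [map_sub, LinearMap.trace_one, h, sub_self])
  exact (sub_eq_zero.1 h2).symm

/-- an idempotent of trace one: compressions are scalars -/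
theorem compress {e : V →ₗ[ℂ] V} (he : e * e = e) (h : LinearMap.trace ℂ V e = 1) (T : V →ₗ[ℂ] V) :
    e * T * e = LinearMap.trace ℂ V (T * e) • e := by
  have h1 : Module.finrank ℂ (LinearMap.range e) = 1 := by
    rw [trace_idem he] at h
    exact_mod_cast h
  obtain ⟨⟨v, w, hw⟩, hv0, hv⟩ := finrank_eq_one_iff'.1 h1
  have hev : e v = v := by
    rw [← hw]
    exact congrArg (fun f : V →ₗ[ℂ] V => f w) he
  have hev' : ∀ x, ∃ c : ℂ, e x = c • v := by
    intro x
    obtain ⟨c, hc⟩ := hv ⟨e x, x, rfl⟩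
    exact ⟨c, (congrArg Subtype.val hc).symm⟩
  obtain ⟨t, ht⟩ := hev' (T v)
  have h2 : e * T * e = t • e := by
    ext x
    obtain ⟨c, hc⟩ := hev' x
    show e (T (e x)) = t • e x
    rw [hc, map_smul, map_smul, ht, smul_comm]
  have h3 : LinearMap.trace ℂ V (T * e) = t := by
    have h4 : LinearMap.trace ℂ V (e * T * e) = LinearMap.trace ℂ V (T * e) := by
      rw [mul_assoc, LinearMap.trace_mul_comm, mul_assoc, he]
    rw [← h4, h2, map_smul, h, smul_eq_mul, mul_one]
  rw [h2, h3]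

end idem

/-- an element normalising the family -/
theorem av_norm (ρ : Representation ℂ G V) {A : Type*} [Fintype A] {u : A → G} (hinj : Function.Injective u) {g : G}
    (h : ∀ a, ∃ b, g * u a * g⁻¹ = u b) : ρ g * av ρ u * ρ g⁻¹ = av ρ u := by
  choose σ hσ using h
  have h1 : Function.Injective σ := by
    intro a b hab
    have h2 : g * u a * g⁻¹ = g * u b * g⁻¹ := by rw [hσ, hσ, hab]
    exact hinj (mul_left_cancel (mul_right_cancel h2))
  rw [av_conj]
  have h2 := av_equiv ρ (Equiv.ofBijective σ (Finite.injective_iff_bijective.1 h1)) u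
  rw [← h2]
  congr 1
  funext a
  exact hσ a

section trace

variable {A : Type*} [Fintype A] [AddCommGroup A] {u : A → G} [FiniteDimensional ℂ V]

/-- the trace of `z` on the fixed space, when the other weights have multiplicity one and `z` fixes the weight
vectors whose weights it fixes -/
theorem trace_rho_av (ρ : Representation ℂ G V) (h0 : u 0 = 1) (hu : ∀ a b, u (a + b) = u a * u b)
    {z : G} {σ : A ≃+ A} (hz : ∀ a, z * u a * z⁻¹ = u (σ a))
    (hfix : ∀ ψ : AddChar A ℂ, ψ ≠ 0 → (∀ a, ψ (σ a) = ψ a) → LinearMap.trace ℂ V (ρ z * ew ρ u ψ) = 1) :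
    LinearMap.trace ℂ V (ρ z * av ρ u) =
      LinearMap.trace ℂ V (ρ z) - ((Nat.card {ψ : AddChar A ℂ // ∀ a, ψ (σ a) = ψ a} : ℂ) - 1) := by
  classical
  have hσ : ∀ ψ : AddChar A ℂ, ψ.compAddMonoidHom σ.toAddMonoidHom = ψ ↔ ∀ a, ψ (σ a) = ψ a := by
    intro ψ
    constructor
    · intro h a
      conv_rhs => rw [← h]
      rfl
    · intro h
      ext a
      exact h a
  have h1 : ∀ ψ : AddChar A ℂ, LinearMap.trace ℂ V (ρ z * ew ρ u ψ) =
      (if ∀ a, ψ (σ a) = ψ a then 1 else 0) + (if ψ = 0 then LinearMap.trace ℂ V (ρ z * av ρ u) - 1 else 0) := by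
    intro ψ
    by_cases h2 : ψ = 0
    · rw [if_pos h2, h2, ew_zero, if_pos (fun a => by rw [AddChar.zero_apply, AddChar.zero_apply])]
      ring
    · rw [if_neg h2, add_zero]
      by_cases h3 : ∀ a, ψ (σ a) = ψ a
      · rw [if_pos h3, hfix ψ h2 h3]
      · rw [if_neg h3]
        have h4 : ρ z * ew ρ u (ψ.compAddMonoidHom σ.toAddMonoidHom) = ew ρ u ψ * ρ z := by
          rw [← ew_conj ρ hz ψ, mul_assoc, rho_inv_mul, mul_one]
        have h5 : ew ρ u ψ * (ρ z * ew ρ u ψ) = 0 := by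
          rw [← mul_assoc, ← h4, mul_assoc, ew_mul_ne ρ hu (fun e => h3 ((hσ ψ).1 e)), mul_zero]
        rw [← ew_mul_self ρ hu, ← mul_assoc, LinearMap.trace_mul_comm, h5, map_zero]
  have h2 : LinearMap.trace ℂ V (ρ z) = ∑ ψ : AddChar A ℂ, LinearMap.trace ℂ V (ρ z * ew ρ u ψ) := by
    rw [← map_sum, ← Finset.mul_sum, sum_ew ρ h0, mul_one]
  rw [h2, Finset.sum_congr rfl (fun ψ _ => h1 ψ), Finset.sum_add_distrib, Finset.sum_ite_eq' Finset.univ (0 : AddChar A ℂ),
    if_pos (Finset.mem_univ _), Finset.sum_boole, Nat.card_eq_fintype_card, Fintype.card_subtype]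
  ring

/-- commutators of elements commuting with a rank one idempotent -/
theorem comm_fix (ρ : Representation ℂ G V) {e : V →ₗ[ℂ] V} (he : e * e = e) (h : LinearMap.trace ℂ V e = 1) {g k : G}
    (hg : ρ g * e = e * ρ g) (hk : ρ k * e = e * ρ k) :
    LinearMap.trace ℂ V (ρ (g * k * g⁻¹ * k⁻¹) * e) = 1 := by
  have h1 : ∀ {x : G}, ρ x * e = e * ρ x → ρ x * e = LinearMap.trace ℂ V (ρ x * e) • e := by
    intro x hx
    rw [← compress he h, ← hx, mul_assoc, he]
  have h2 := h1 hg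
  have h3 := h1 hk
  set s := LinearMap.trace ℂ V (ρ g * e)
  set t := LinearMap.trace ℂ V (ρ k * e)
  have h4 : ρ (g * k) * e = (s * t) • e := by
    rw [map_mul, mul_assoc, h3, mul_smul_comm, h2, smul_smul, mul_comm]
  have h5 : ρ (k * g) * e = (s * t) • e := by
    rw [map_mul, mul_assoc, h2, mul_smul_comm, h3, smul_smul]
  have h6 : ρ (g * k * g⁻¹ * k⁻¹) * e = e := by
    by_cases h7 : s * t = 0
    · exfalso
      rw [h7, zero_smul] at h5
      have h8 : e = 0 := by
        have h9 : ρ (k * g)⁻¹ * (ρ (k * g) * e) = e := by rw [← mul_assoc, rho_inv_mul, one_mul]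
        rw [← h9, h5, mul_zero]
      rw [h8, map_zero] at h
      exact zero_ne_one h
    · have h8 : e = (s * t)⁻¹ • (ρ (k * g) * e) := by rw [h5, smul_smul, inv_mul_cancel₀ h7, one_smul]
      conv_lhs => rw [h8]
      have h9 : g * k * g⁻¹ * k⁻¹ * (k * g) = g * k := by group
      rw [mul_smul_comm, ← mul_assoc, ← map_mul ρ, h9, h4, smul_smul, inv_mul_cancel₀ h7, one_smul]
  rw [h6, h]

/-- elements fixing a weight commute with its idempotent -/
theorem rho_comm_ew (ρ : Representation ℂ G V) {g : G} {σ : A ≃+ A} (hg : ∀ a, g * u a * g⁻¹ = u (σ a))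
    {ψ : AddChar A ℂ} (hψ : ∀ a, ψ (σ a) = ψ a) : ρ g * ew ρ u ψ = ew ρ u ψ * ρ g := by
  have h1 : ψ.compAddMonoidHom σ.toAddMonoidHom = ψ := by
    ext a
    exact hψ a
  have h2 := ew_conj ρ hg ψ
  rw [h1] at h2
  conv_rhs => rw [← h2]
  rw [mul_assoc, rho_inv_mul, mul_one]

end trace

/-- the number of characters trivial on a line -/
theorem card_fix {F A : Type*} [Field F] [Fintype F] [AddCommGroup A] [Module F A] [Fintype A] {w : A} (hw : w ≠ 0) :
    Fintype.card F * Nat.card {ψ : AddChar A ℂ // ∀ t : F, ψ (t • w) = 1} = Fintype.card A := by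
  classical
  have h1 : ∀ ψ : AddChar A ℂ, ∑ t : F, ψ (t • w) = if ∀ t : F, ψ (t • w) = 1 then (Fintype.card F : ℂ) else 0 := by
    intro ψ
    let f : F →+ A := { toFun := fun t => t • w, map_zero' := zero_smul F w, map_add' := fun a b => add_smul a b w }
    have h2 := AddChar.sum_eq_ite (ψ.compAddMonoidHom f)
    have h3 : (ψ.compAddMonoidHom f = 0) ↔ ∀ t : F, ψ (t • w) = 1 := by
      constructor
      · intro h t
        have := DFunLike.congr_fun h t
        exact this
      · intro h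
        ext t
        exact h t
    simp only [h3] at h2
    exact h2
  have h2 : ∑ ψ : AddChar A ℂ, ∑ t : F, ψ (t • w) = (Fintype.card A : ℂ) := by
    rw [Finset.sum_comm]
    have h3 : ∀ t : F, ∑ ψ : AddChar A ℂ, ψ (t • w) = if t = 0 then (Fintype.card A : ℂ) else 0 := by
      intro t
      rw [AddChar.sum_apply_eq_ite]
      simp [hw]
    rw [Finset.sum_congr rfl (fun t _ => h3 t), Finset.sum_ite_eq' Finset.univ (0 : F), if_pos (Finset.mem_univ _)]
  rw [Finset.sum_congr rfl (fun ψ _ => h1 ψ), ← Finset.sum_filter, Finset.sum_const, nsmul_eq_mul] at h2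
  rw [Nat.card_eq_fintype_card, Fintype.card_subtype]
  have h3 : ((Finset.univ.filter (fun ψ : AddChar A ℂ => ∀ t : F, ψ (t • w) = 1)).card * Fintype.card F : ℕ) =
      Fintype.card A := by exact_mod_cast h2
  rw [mul_comm]
  exact h3

/-! ### Schur averages -/

section schur

variable [FiniteDimensional ℂ V] [Fintype G]

theorem schur_sum {ρ : Representation ℂ G V} (hρ : ρ.IsIrreducible) (hV : Module.finrank ℂ V ≠ 0) (T : V →ₗ[ℂ] V) :
    ∑ g : G, ρ g * T * ρ g⁻¹ =
      ((Fintype.card G : ℂ) * LinearMap.trace ℂ V T / Module.finrank ℂ V) • (1 : V →ₗ[ℂ] V) := by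
  have hV' : (Module.finrank ℂ V : ℂ) ≠ 0 := Nat.cast_ne_zero.2 hV
  obtain ⟨c, hc⟩ := RepSchur.scalar_of_commute hρ (∑ g : G, ρ g * T * ρ g⁻¹) (by
    intro h
    rw [Finset.sum_mul, Finset.mul_sum, ← Equiv.sum_comp (Equiv.mulLeft h) (fun g => ρ g * T * ρ g⁻¹ * ρ h)]
    refine Finset.sum_congr rfl fun g _ => ?_
    simp only [Equiv.coe_mulLeft]
    rw [mul_inv_rev, map_mul, map_mul, mul_assoc _ _ (ρ h), mul_assoc (ρ g⁻¹), rho_inv_mul, mul_one]
    simp only [mul_assoc])
  have h1 : LinearMap.trace ℂ V (∑ g : G, ρ g * T * ρ g⁻¹) = (Fintype.card G : ℂ) * LinearMap.trace ℂ V T := by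
    rw [map_sum]
    have h2 : ∀ g : G, LinearMap.trace ℂ V (ρ g * T * ρ g⁻¹) = LinearMap.trace ℂ V T := by
      intro g
      rw [LinearMap.trace_mul_comm, ← mul_assoc, rho_inv_mul, one_mul]
    rw [Finset.sum_congr rfl (fun g _ => h2 g), Finset.sum_const, Finset.card_univ, nsmul_eq_mul]
  rw [hc, map_smul, LinearMap.trace_one, smul_eq_mul] at h1
  rw [hc, ← h1, mul_div_cancel_right₀ _ hV']

theorem schur_trace {ρ : Representation ℂ G V} (hρ : ρ.IsIrreducible) (hV : Module.finrank ℂ V ≠ 0) (T S : V →ₗ[ℂ] V) :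
    ∑ g : G, LinearMap.trace ℂ V (ρ g * T * ρ g⁻¹ * S) =
      (Fintype.card G : ℂ) * LinearMap.trace ℂ V T * LinearMap.trace ℂ V S / Module.finrank ℂ V := by
  rw [← map_sum, ← Finset.sum_mul, schur_sum hρ hV, smul_mul_assoc, one_mul, map_smul, smul_eq_mul]
  ring

end schur

/-- averaging over a transitive action -/
theorem sum_orbit {G X : Type*} [Group G] [Fintype G] [Fintype X] [MulAction G X]
    (htr : MulAction.IsPretransitive G X) (x₀ : X) (f : X → ℂ) :
    (Fintype.card X : ℂ) * ∑ g : G, f (g • x₀) = (Fintype.card G : ℂ) * ∑ x : X, f x := by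
  have h1 : ∀ x : X, ∑ g : G, f (g • x) = ∑ g : G, f (g • x₀) := by
    intro x
    obtain ⟨h, rfl⟩ := MulAction.exists_smul_eq G x₀ x
    rw [← Equiv.sum_comp (Equiv.mulRight h) (fun g => f (g • x₀))]
    exact Finset.sum_congr rfl fun g _ => by rw [Equiv.coe_mulRight, mul_smul]
  have h2 : ∑ x : X, ∑ g : G, f (g • x) = (Fintype.card X : ℂ) * ∑ g : G, f (g • x₀) := by
    rw [Finset.sum_congr rfl (fun x _ => h1 x), Finset.sum_const, Finset.card_univ, nsmul_eq_mul]
  rw [← h2, Finset.sum_comm]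
  have h3 : ∀ g : G, ∑ x : X, f (g • x) = ∑ x : X, f x := fun g => Equiv.sum_comp (MulAction.toPerm g) f
  rw [Finset.sum_congr rfl (fun g _ => h3 g), Finset.sum_const, Finset.card_univ, nsmul_eq_mul]

end Cfsg.Agent.Lib.AvgTrace
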