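import Cfsg.Agent.Lib.BBlockA
import Cfsg.Agent.Lib.Components

/-!
# Pairs of subnormal Baumann blocks (helper78): general part
-/

set_option autoImplicit false
set_option linter.unusedSectionVars false

namespace Cfsg.Agent.Lib.BBPair

open Subgroup Cfsg Cfsg.Agent.Lib.LocBase Cfsg.Agent.Lib.PReduced Cfsg.Agent.Lib.BBlock
open scoped commutatorElement

/-- `W_E` -/
abbrev WE {G : Type*} [Group G] (p : ℕ) (E : Subgroup G) : Subgroup G := ⁅OZ p (pCoreOf p E), E⁆

universe u
variable {G : Type u} [Group G] [Finite G] {p : ℕ} [hp : Fact p.Prime]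

/-- a subnormal block -/
structure SB (p : ℕ) (E : Subgroup G) : Prop where
  cp : centralizer (pCore p G : Set G) ≤ pCore p G
  blk : ∃ T : Subgroup G, Blk p T E
  sub : Subn E ⊤
  qe : ⁅pCoreOf p E, E⁆ = pCoreOf p E

theorem norm_top (A : Subgroup G) (hA : A.Normal) (K : Subgroup G) : K ≤ normalizer (A : Set G) := by
  rw [Subgroup.normalizer_eq_top_iff.mpr hA]; exact le_top

theorem pCore_norm (K : Subgroup G) : K ≤ normalizer (pCore p G : Set G) := norm_top _ (pCore_normal p G) K

theorem V_norm (K : Subgroup G) : K ≤ normalizer (OZ p (pCore p G) : Set G) := by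
  have h := (pCore_norm (p := p) (⊤ : Subgroup G)).trans (normalizer_le_normalizer_OZ p _)
  exact le_top.trans h

theorem V_le : OZ p (pCore p G) ≤ pCore p G := OZ_le _

theorem O_cent : pCore p G ≤ centralizer (OZ p (pCore p G) : Set G) := le_centralizer_OZ _

/-- the hom argument: `[E, F] ≤ X` if `[E, F]` is a `p`-group centralized by `E` modulo `X` -/
theorem hom_arg {E F D X : Subgroup G} (hE : pRes p E = E) (hD : IsPGroup p D) (hEF : ⁅E, F⁆ ≤ D)
    (hX : E ≤ normalizer (X : Set G)) (hDX : D ≤ normalizer (X : Set G)) (h : ⁅D, E⁆ ≤ X) : ⁅E, F⁆ ≤ X := by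
  rw [← hE]
  unfold pRes
  have hcl : closure {x | x ∈ E ∧ (orderOf x).Coprime p} = E := hE
  apply commutator_closure_le
  · rw [hcl]; exact hX
  · rintro x ⟨hx, ho⟩ a ha
    have h1 : ⁅x, a⁆ ∈ D := hEF (commutator_mem_commutator hx ha)
    apply commutator_mem_of_coprime hD ho h1 (hX hx) (hDX h1)
    apply h
    rw [commutator_comm]
    exact commutator_mem_commutator hx h1

namespace SB

variable {E F : Subgroup G} (h : SB p E) (k : SB p F)

section one
include h

theorem res : pRes p E = E := by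
  obtain ⟨T, hT⟩ := h.blk
  exact hT.res

theorem Q_le : pCoreOf p E ≤ pCore p G := by
  have := h.sub.pCoreOf_le (p := p)
  rwa [pCoreOf_top] at this

theorem inf_le : E ⊓ pCore p G ≤ pCoreOf p E :=
  LocBase.le_pCoreOf inf_le_left (le_normalizer_inf le_normalizer (pCore_norm E))
    ((isPGroup_pCore p G).to_le inf_le_right)

theorem O_norm : pCore p G ≤ normalizer (E : Set G) := by
  obtain ⟨T, hT⟩ := h.blk
  exact hT.pCore_le_N h.cp

theorem comm_O : ⁅pCore p G, E⁆ ≤ pCoreOf p E := by
  refine le_trans (le_inf ?_ ?_) h.inf_le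
  · exact commutator_le_right_of_le h.O_norm
  · exact commutator_le_left_of_le (pCore_norm E)

theorem WE_le_V : WE p E ≤ OZ p (pCore p G) := by
  obtain ⟨T, hT⟩ := h.blk
  exact (hT.main84 h.cp).1

theorem WE_idem : ⁅WE p E, E⁆ = WE p E := by
  have := commutator_pRes_idem (p := p) (P := OZ p (pCoreOf p E)) (K := E)
    ((isPGroup_pCoreOf p E).to_le (OZ_le _))
    ((le_normalizer_pCoreOf p E).trans (normalizer_le_normalizer_OZ p _))
  rwa [h.res] at this

theorem comm_V : ⁅OZ p (pCore p G), E⁆ = WE p E := by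
  apply le_antisymm
  · have h1 := commutator_pRes_idem (p := p) (P := OZ p (pCore p G)) (K := E)
      ((isPGroup_pCore p G).to_le V_le) (V_norm E)
    rw [h.res] at h1
    rw [← h1]
    apply commutator_mono _ le_rfl
    intro x hx
    have hxQ : x ∈ pCoreOf p E := h.comm_O (commutator_mono V_le le_rfl hx)
    have hxV : x ∈ OZ p (pCore p G) := commutator_le_left_of_le (V_norm E) hx
    rw [mem_OZ] at hxV ⊢
    exact ⟨hxQ, centralizer_le h.Q_le hxV.2.1, hxV.2.2⟩
  · rw [← h.WE_idem]
    exact commutator_mono h.WE_le_V le_rfl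

theorem WE_norm : E ≤ normalizer (WE p E : Set G) := normalizer_commutator_ge_right _ _

theorem WE_le_OZ : WE p E ≤ OZ p (pCoreOf p E) :=
  commutator_le_left_of_le ((le_normalizer_pCoreOf p E).trans (normalizer_le_normalizer_OZ p _))

theorem Q_cent_WE : pCoreOf p E ≤ centralizer (WE p E : Set G) :=
  (le_centralizer_OZ _).trans (centralizer_le h.WE_le_OZ)

theorem WE_not : ¬ WE p E ≤ centralizer (E : Set G) := by
  intro hc
  obtain ⟨T, hT⟩ := h.blk
  have h1 : WE p E = ⊥ := by
    rw [← h.WE_idem, commutator_eq_bot_iff_le_centralizer]; exact hc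
  apply hT.J_act h.cp
  change ⁅WE p E, _⁆ = ⊥
  rw [h1]; simp

/-- an `E`-invariant subgroup of `W_E` centralizes `E` or is everything -/
theorem WE_irr {X : Subgroup G} (hX : X ≤ WE p E) (hn : E ≤ normalizer (X : Set G)) :
    X ≤ centralizer (E : Set G) ∨ X = WE p E := by
  by_cases hc : X ≤ centralizer (E : Set G)
  · exact Or.inl hc
  · right
    obtain ⟨T, hT⟩ := h.blk
    have hXQ : X ≤ pCoreOf p E := hX.trans (h.WE_le_OZ.trans (OZ_le _))
    have hXc : X ≤ centralizer (X : Set G) := by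
      have h1 : X ≤ OZ p (pCoreOf p E) := hX.trans h.WE_le_OZ
      exact (h1.trans (elem_iff.mp (elem_OZ p _)).1).trans (centralizer_le h1)
    exact le_antisymm hX (hT.W_le hXQ hXc hn hc).2

end one

section two
include h k

theorem norm_of (hEF : ⁅E, F⁆ ≤ pCore p G) : E ≤ normalizer (F : Set G) :=
  normalizes_of_sup k.res (isPGroup_pCore p G) k.O_norm (pCore_norm E) hEF

theorem D_le (hEF : ⁅E, F⁆ ≤ pCore p G) : ⁅E, F⁆ ≤ pCoreOf p E ∧ ⁅E, F⁆ ≤ pCoreOf p F := by
  have h1 := norm_of h k hEF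
  have h2 := norm_of k h (by rw [commutator_comm]; exact hEF)
  have h3 : ⁅E, F⁆ ≤ E := commutator_le_left_of_le h2
  have h4 : ⁅E, F⁆ ≤ F := commutator_le_right_of_le h1
  exact ⟨(le_inf h3 hEF).trans h.inf_le, (le_inf h4 hEF).trans k.inf_le⟩

theorem WE_norm' (hEF : ⁅E, F⁆ ≤ pCore p G) : F ≤ normalizer (WE p E : Set G) := by
  have h2 := norm_of k h (by rw [commutator_comm]; exact hEF)
  have h3 : F ≤ normalizer (OZ p (pCoreOf p E) : Set G) :=
    (h2.trans (normalizer_le_normalizer_pCoreOf p _)).trans (normalizer_le_normalizer_OZ p _)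
  exact le_normalizer_commutator h3 h2

/-- if `W_E ≠ W_F` then `F` centralizes `W_E` -/
theorem WE_cent (hEF : ⁅E, F⁆ ≤ pCore p G) (hW : WE p E ≠ WE p F) : F ≤ centralizer (WE p E : Set G) := by
  have hFE : ⁅F, E⁆ ≤ pCore p G := by rw [commutator_comm]; exact hEF
  have h1 := norm_of h k hEF
  have h2 := norm_of k h hFE
  have hFW := WE_norm' h k hEF
  set X := ⁅WE p E, F⁆ with hX
  have hXW : X ≤ WE p E := commutator_le_left_of_le hFW
  have hXn : E ≤ normalizer (X : Set G) := le_normalizer_commutator h.WE_norm h1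
  have hXF : X ≤ WE p F := by
    rw [hX, ← k.comm_V]
    exact commutator_mono h.WE_le_V le_rfl
  rcases h.WE_irr hXW hXn with hc | hc
  · have h3 : ⁅⁅E, WE p E⁆, F⁆ ≤ ⊥ := by
      have hb : ∀ K : Subgroup G, K ≤ normalizer ((⊥ : Subgroup G) : Set G) := fun K => norm_top _ inferInstance K
      apply PAct.three_subgroups (hb _) (hb _) (hb _)
      · rw [← hX, commutator_eq_bot_iff_le_centralizer.mpr hc]
      · have h4 : ⁅⁅F, E⁆, WE p E⁆ ≤ ⁅pCoreOf p E, WE p E⁆ := by
          apply commutator_mono _ le_rfl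
          rw [commutator_comm]; exact (D_le h k hEF).1
        refine h4.trans ?_
        rw [commutator_eq_bot_iff_le_centralizer.mpr h.Q_cent_WE]
    rw [commutator_comm E, h.WE_idem, le_bot_iff, commutator_eq_bot_iff_le_centralizer] at h3
    exact Subgroup.le_centralizer_iff.mp h3
  · exfalso
    have h3 : WE p E ≤ WE p F := by rw [← hc]; exact hXF
    rcases k.WE_irr h3 hFW with h4 | h4
    · have h5 : X = ⊥ := by rw [hX, commutator_eq_bot_iff_le_centralizer]; exact h4
      apply h.WE_not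
      rw [← hc, h5]
      exact bot_le
    · exact hW h4

/-- the final step: `[E, F] = 1` -/
theorem comm_bot_of_le (hEF : ⁅E, F⁆ ≤ pCore p G) (hW : WE p E ≠ WE p F)
    (hD : ⁅E, F⁆ ≤ OZ p (pCoreOf p E)) : ⁅E, F⁆ = ⊥ := by
  have hFE : ⁅F, E⁆ ≤ pCore p G := by rw [commutator_comm]; exact hEF
  have h1 := norm_of h k hEF
  have h2 := norm_of k h hFE
  have hc := WE_cent h k hEF hW
  set D := ⁅E, F⁆ with hDdef
  have hDp : IsPGroup p D := (isPGroup_pCore p G).to_le hEF
  have hDE : E ≤ normalizer (D : Set G) := le_normalizer_commutator le_normalizer h1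
  have hDF : F ≤ normalizer (D : Set G) := le_normalizer_commutator h2 le_normalizer
  have h3 : ⁅D, E⁆ ≤ WE p E := commutator_mono hD le_rfl
  have h4 : D ≤ ⁅D, E⁆ := by
    apply hom_arg h.res hDp le_rfl (normalizer_commutator_ge_right _ _) (normalizer_commutator_ge_left _ _) le_rfl
  have h5 : ⁅F, E⁆ ≤ (⊥ : Subgroup G) := by
    apply hom_arg (D := D) k.res hDp (by rw [commutator_comm]) (norm_top _ inferInstance _)
      (norm_top _ inferInstance _)
    rw [commutator_comm]
    have h6 : F ≤ centralizer (D : Set G) := hc.trans (centralizer_le (h4.trans h3))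
    rw [commutator_eq_bot_iff_le_centralizer.mpr h6]
  rw [commutator_comm] at h5
  exact le_bot_iff.mp h5

end two

end SB

end Cfsg.Agent.Lib.BBPair
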