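import Cfsg.Agent.Lib.BBPair9

/-!
# Pairs of subnormal Baumann blocks (helper78): `W_E` determines `E` for `p = 3`
-/

set_option autoImplicit false
set_option linter.unusedSectionVars false

namespace Cfsg.Agent.Lib.BBPair

open Subgroup Cfsg Cfsg.Agent.Lib.LocBase Cfsg.Agent.Lib.PReduced Cfsg.Agent.Lib.BBlock
open scoped commutatorElement

universe u
variable {G : Type u} [Group G] [Finite G]

theorem E_le_P2 {S E : Subgroup G} (hS : IsPGroup 2 S) (h : SB 3 E) (gen : pCoreOf 3 E ⊔ (S ⊓ E) = E) : E ≤ P2 G := by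
  unfold P2
  rw [← Subgroup.map_le_iff_le_comap]
  have h1 : Subn (E.map (QuotientGroup.mk' (pCore 3 G))) ⊤ := by
    have := h.sub.map (QuotientGroup.mk' (pCore 3 G))
    rwa [← MonoidHom.range_eq_map, MonoidHom.range_eq_top.mpr (QuotientGroup.mk'_surjective _)] at this
  have h2 : IsPGroup 2 ↥(E.map (QuotientGroup.mk' (pCore 3 G))) := by
    have e1 : E.map (QuotientGroup.mk' (pCore 3 G)) = (S ⊓ E).map (QuotientGroup.mk' (pCore 3 G)) := by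
      conv_lhs => rw [← gen, Subgroup.map_sup]
      have e2 : (pCoreOf 3 E).map (QuotientGroup.mk' (pCore 3 G)) = ⊥ := by
        rw [Subgroup.map_eq_bot_iff, QuotientGroup.ker_mk']; exact h.Q_le
      rw [e2, bot_sup_eq]
    rw [e1]
    exact (hS.to_le inf_le_left).map _
  have h3 := h1.le_pCoreOf h2
  rwa [pCoreOf_top] at h3

/-- `z` inverts `Q V / V` -/
theorem inv_Y {E : Subgroup G} {z : G} (h : SB 3 E) (x : S3x E z) :
    ∀ a ∈ pCoreOf 3 E ⊔ OZ 3 (pCore 3 G), z * a * z⁻¹ * a ∈ OZ 3 (pCore 3 G) := by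
  intro a ha
  obtain ⟨q, hq, v, hv, rfl⟩ := S3x.mem_Y h ha
  have hzv : z * v * z⁻¹ ∈ OZ 3 (pCore 3 G) := V_mem_conj z hv
  have e1 : z * (q * v) * z⁻¹ * (q * v) = (z * q * z⁻¹) * ((z * v * z⁻¹) * q) * v := by group
  rw [e1, V_comm hzv (h.Q_le hq)]
  have e2 : (z * q * z⁻¹) * (q * (z * v * z⁻¹)) * v = (z * q * z⁻¹ * q) * (z * v * z⁻¹) * v := by group
  rw [e2]
  exact mul_mem (mul_mem (S3x.Om_V h x (x.inv q hq)) hzv) hv

/-- the minimal situation -/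
structure Sit (S E F : Subgroup G) : Prop where
  hS : IsSyl 2 S ⊤
  h : S3 S E
  k : S3 S F
  hW : WE 3 E = WE 3 F
  nF : S ⊓ F ≤ normalizer (E : Set G)
  nE : S ⊓ E ≤ normalizer (F : Set G)
  ne : S ⊓ E ≠ S ⊓ F

namespace Sit

variable {S E F : Subgroup G} {zE zF : G}

theorem symm (s : Sit S E F) : Sit S F E := ⟨s.hS, s.k, s.h, s.hW.symm, s.nE, s.nF, s.ne.symm⟩

theorem sup_S : (S ⊓ E) ⊔ (S ⊓ F) ≤ S := sup_le inf_le_left inf_le_left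

theorem cent_V (s : Sit S E F) {c : G} (hc : c ∈ (S ⊓ E) ⊔ (S ⊓ F)) (hcW : ∀ w ∈ WE 3 E, c * w = w * c) :
    ∀ v ∈ OZ 3 (pCore 3 G), c * v = v * c := by
  intro v hv
  have hco := coprime_of_isPGroup (p := 3) s.hS.pgroup (sup_S hc) (by norm_num)
  have h1 : ⁅c, v⁆ ∈ WE 3 E := by
    refine comm_sup_mem (P := OZ 3 (pCore 3 G)) (X := WE 3 E) (inf_le_right.trans s.h.sb.WE_norm) ?_ ?_ ?_ c hc v hv
    · rw [s.hW]; exact inf_le_right.trans s.k.sb.WE_norm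
    · intro a ha o ho
      rw [← s.h.sb.comm_V, commutator_comm]
      exact commutator_mem_commutator ha.2 ho
    · intro a ha o ho
      rw [s.hW, ← s.k.sb.comm_V, commutator_comm]
      exact commutator_mem_commutator ha.2 ho
  have h2 : ⁅c, ⁅c, v⁆⁆ ∈ (⊥ : Subgroup G) := by
    rw [mem_bot, commutatorElement_eq_one_iff_mul_comm]; exact hcW _ h1
  have h3 := commutator_mem_of_coprime (isPGroup_pCore 3 G) hco (V_le (p := 3) (s.h.sb.WE_le_V h1))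
    (bot_norm ⊤ (mem_top _)) (bot_norm ⊤ (mem_top _)) h2
  rwa [mem_bot, commutatorElement_eq_one_iff_mul_comm] at h3

theorem lift (s : Sit S E F) (qE : Q8 (S ⊓ E) zE) (iE : ∀ w ∈ WE 3 E, zE * w * zE⁻¹ = w⁻¹)
    (iF : ∀ w ∈ WE 3 F, zF * w * zF⁻¹ = w⁻¹) {b : G} (hb : b ∈ S ⊓ F) (hbz : b * b = zF) :
    ∃ a ∈ S ⊓ E, a * a = zE ∧ ∀ v ∈ OZ 3 (pCore 3 G), (a⁻¹ * b) * v = v * (a⁻¹ * b) := by
  obtain ⟨a, ha, haz, hab⟩ := qE.six (X := WE 3 E) (b := b) (s.h.st s.hS).cardW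
    (inf_le_right.trans s.h.sb.WE_norm) iE (by rw [s.hW]; exact s.k.sb.WE_norm hb.2) (by rw [hbz, s.hW]; exact iF)
  refine ⟨a, ha, haz, s.cent_V (mul_mem ?_ ?_) hab⟩
  · exact (le_sup_left : S ⊓ E ≤ _) (inv_mem ha)
  · exact (le_sup_right : S ⊓ F ≤ _) hb

theorem exists_b (s : Sit S E F) (qF : Q8 (S ⊓ F) zF) : ∃ b ∈ S ⊓ F, b * b = zF ∧ b ∉ S ⊓ E := by
  by_contra hcon
  push Not at hcon
  apply s.ne
  have h1 : S ⊓ F ≤ S ⊓ E := by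
    intro b hb
    obtain ⟨b', hb', hb2⟩ := qF.exists_sq
    rcases qF.cases b hb with h1 | h1 | h1
    · rw [h1]; exact one_mem _
    · rw [h1, ← hb2]; exact mul_mem (hcon b' hb' hb2) (hcon b' hb' hb2)
    · exact hcon b hb h1
  exact (Subgroup.eq_of_le_of_card_ge h1 (by rw [(s.h.st s.hS).cardA, (s.k.st s.hS).cardA])).symm

theorem mem_P2 (s : Sit S E F) : (S ⊓ E) ⊔ (S ⊓ F) ≤ P2 G :=
  sup_le (inf_le_right.trans (E_le_P2 s.hS.pgroup s.h.sb (s.h.st s.hS).gen))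
    (inf_le_right.trans (E_le_P2 s.hS.pgroup s.k.sb (s.k.st s.hS).gen))

theorem comm_Y (s : Sit S E F) (hFY : pCoreOf 3 F ≤ pCoreOf 3 E ⊔ OZ 3 (pCore 3 G)) :
    ∀ c ∈ (S ⊓ E) ⊔ (S ⊓ F), ∀ o ∈ pCore 3 G, ⁅c, o⁆ ∈ pCoreOf 3 E ⊔ OZ 3 (pCore 3 G) := by
  apply comm_sup_mem
  · exact fun a ha => S3x.k_Y (le_normalizer ha.2)
  · exact fun b hb => S3x.k_Y (s.nF hb)
  · intro a ha o ho
    apply (le_sup_left : pCoreOf 3 E ≤ _)
    apply s.h.sb.comm_O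
    rw [commutator_comm]
    exact commutator_mem_commutator ha.2 ho
  · intro b hb o ho
    apply hFY
    apply s.k.sb.comm_O
    rw [commutator_comm]
    exact commutator_mem_commutator hb.2 ho

/-- both nonexceptional -/
theorem nn (s : Sit S E F) (qE : Q8 (S ⊓ E) zE) (qF : Q8 (S ⊓ F) zF) (iE : ∀ w ∈ WE 3 E, zE * w * zE⁻¹ = w⁻¹)
    (iF : ∀ w ∈ WE 3 F, zF * w * zF⁻¹ = w⁻¹) (hE : pCoreOf 3 E = OZ 3 (pCoreOf 3 E))
    (hF : pCoreOf 3 F = OZ 3 (pCoreOf 3 F)) : False := by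
  have hWE : WE 3 E = pCoreOf 3 E := by unfold WE; rw [← hE]; exact s.h.sb.qe
  have hWF : WE 3 F = pCoreOf 3 F := by unfold WE; rw [← hF]; exact s.k.sb.qe
  obtain ⟨b, hb, hbz, hbA⟩ := s.exists_b qF
  obtain ⟨a, ha, haz, hab⟩ := s.lift qE iE iF hb hbz
  apply hbA
  have hc : a⁻¹ * b ∈ (S ⊓ E) ⊔ (S ⊓ F) :=
    mul_mem ((le_sup_left : S ⊓ E ≤ _) (inv_mem ha)) ((le_sup_right : S ⊓ F ≤ _) hb)
  have hco := coprime_of_isPGroup (p := 3) s.hS.pgroup (sup_S hc) (by norm_num)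
  have h1 : a⁻¹ * b = 1 := by
    apply triv_of_chain s.h.sb.cp hco (X := WE 3 E) (s.h.sb.WE_le_V.trans V_le) ?_ (fun w hw => hab w (s.h.sb.WE_le_V hw))
    refine comm_sup_mem (P := pCore 3 G) (X := WE 3 E) (inf_le_right.trans s.h.sb.WE_norm) ?_ ?_ ?_ _ hc
    · rw [s.hW]; exact inf_le_right.trans s.k.sb.WE_norm
    · intro a ha o ho
      rw [hWE]
      apply s.h.sb.comm_O
      rw [commutator_comm]
      exact commutator_mem_commutator ha.2 ho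
    · intro a ha o ho
      rw [s.hW, hWF]
      apply s.k.sb.comm_O
      rw [commutator_comm]
      exact commutator_mem_commutator ha.2 ho
  have h2 : a = b := inv_mul_eq_one.mp h1
  rw [← h2]; exact ha

/-- one exceptional -/
theorem en (s : Sit S E F) (qE : Q8 (S ⊓ E) zE) (qF : Q8 (S ⊓ F) zF) (iE : ∀ w ∈ WE 3 E, zE * w * zE⁻¹ = w⁻¹)
    (iF : ∀ w ∈ WE 3 F, zF * w * zF⁻¹ = w⁻¹) (x : S3x E zE)
    (hF : pCoreOf 3 F = OZ 3 (pCoreOf 3 F)) : False := by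
  have hWF : WE 3 F = pCoreOf 3 F := by unfold WE; rw [← hF]; exact s.k.sb.qe
  have hc : zE * zF⁻¹ ∈ (S ⊓ E) ⊔ (S ⊓ F) :=
    mul_mem ((le_sup_left : S ⊓ E ≤ _) qE.mem) ((le_sup_right : S ⊓ F ≤ _) (inv_mem qF.mem))
  have hFV : pCoreOf 3 F ≤ OZ 3 (pCore 3 G) := by rw [← hWF]; exact s.k.sb.WE_le_V
  refine S3x.lemX (g := zE * zF⁻¹) s.h.sb x ⟨s.mem_P2 hc, s.cent_V hc ?_, s.comm_Y (hFV.trans le_sup_right) _ hc, ?_⟩ qE.mem.2
  · intro w hw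
    have hw' : w⁻¹ ∈ WE 3 E := inv_mem hw
    have h2 : zF * w⁻¹ * zF⁻¹ = w := by
      rw [iF w⁻¹ (by rw [← s.hW]; exact hw'), inv_inv]
    have h3 : zF⁻¹ * w * zF = w⁻¹ := by
      calc zF⁻¹ * w * zF = zF⁻¹ * (zF * w⁻¹ * zF⁻¹) * zF := by rw [h2]
        _ = w⁻¹ := by group
    have h4 : zE * w⁻¹ * zE⁻¹ = w := by rw [iE w⁻¹ hw', inv_inv]
    calc zE * zF⁻¹ * w = zE * (zF⁻¹ * w * zF) * zF⁻¹ := by group
      _ = (zE * w⁻¹ * zE⁻¹) * (zE * zF⁻¹) := by rw [h3]; group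
      _ = w * (zE * zF⁻¹) := by rw [h4]
  · intro a ha
    have hw : ⁅zF⁻¹, a⁆ ∈ OZ 3 (pCore 3 G) := by
      apply hFV
      apply s.k.sb.comm_O
      rw [commutator_comm]
      exact commutator_mem_commutator (inv_mem qF.mem.2) (s.h.sb.Q_le ha)
    have e1 : zE * zF⁻¹ * a * (zE * zF⁻¹)⁻¹ * a = (zE * ⁅zF⁻¹, a⁆ * zE⁻¹) * (zE * a * zE⁻¹ * a) := by
      simp only [commutatorElement_def]; group
    rw [e1]
    exact mul_mem (V_mem_conj zE hw) (S3x.Om_V s.h.sb x (x.inv a ha))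

theorem dich (s : Sit S E F) (x : S3x E zE) : (∀ q ∈ pCoreOf 3 E, q ∈ pCoreOf 3 F ⊔ OZ 3 (pCore 3 G) →
    q ∈ OZ 3 (pCoreOf 3 E)) ∨ pCoreOf 3 E ≤ pCoreOf 3 F ⊔ OZ 3 (pCore 3 G) := by
  have hOmV := S3x.Om_V s.h.sb x
  have hn : E ≤ normalizer ((pCoreOf 3 E ⊓ (pCoreOf 3 F ⊔ OZ 3 (pCore 3 G)) : Subgroup G) : Set G) := by
    conv_lhs => rw [← (s.h.st s.hS).gen]
    refine sup_le ?_ ?_
    · refine le_normalizer_inf le_normalizer ?_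
      exact fun q hq => S3x.k_Y (s.k.sb.O_norm (s.h.sb.Q_le hq))
    · refine le_normalizer_inf (inf_le_right.trans (le_normalizer_pCoreOf 3 E)) ?_
      exact fun a ha => S3x.k_Y (s.nE ha)
  rcases x.exc.irr _ (le_inf (OZ_le _) (hOmV.trans le_sup_right)) inf_le_left hn with h1 | h1
  · left
    intro q hq hq2
    rw [← h1]
    exact ⟨hq, hq2⟩
  · right
    exact h1.ge.trans inf_le_right

theorem not_le (x : S3x E zE) : ¬ pCoreOf 3 E ≤ OZ 3 (pCoreOf 3 E) := by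
  intro hle
  apply x.exc.nab
  rw [commutator_eq_bot_iff_le_centralizer]
  exact (hle.trans (elem_iff.mp (elem_OZ 3 _)).1).trans (centralizer_le hle)

theorem sevenA (s : Sit S E F) (qE : Q8 (S ⊓ E) zE) (qF : Q8 (S ⊓ F) zF) (iE : ∀ w ∈ WE 3 E, zE * w * zE⁻¹ = w⁻¹)
    (iF : ∀ w ∈ WE 3 F, zF * w * zF⁻¹ = w⁻¹) (x : S3x E zE)
    (hd : ∀ q ∈ pCoreOf 3 E, q ∈ pCoreOf 3 F ⊔ OZ 3 (pCore 3 G) → q ∈ OZ 3 (pCoreOf 3 E)) : False := by
  have htr : ∀ b ∈ S ⊓ F, Tr (pCoreOf 3 E) (OZ 3 (pCoreOf 3 E)) b := by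
    intro b hb
    refine ⟨S3x.k_Q (s.nF hb), S3x.k_Om (s.nF hb), ?_⟩
    intro q hq
    apply hd
    · rw [commutatorElement_def]
      exact mul_mem ((mem_normalizer_iff.mp (S3x.k_Q (s.nF hb)) _).mp hq) (inv_mem hq)
    · apply (le_sup_left : pCoreOf 3 F ≤ _)
      apply s.k.sb.comm_O
      rw [commutator_comm]
      exact commutator_mem_commutator hb.2 (s.h.sb.Q_le hq)
  have hAB : ∀ e ∈ S ⊓ E, e ∈ S ⊓ F → e = 1 := by
    intro e he he2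
    exact qE.tr_eq_one (isPGroup_pCoreOf 3 E) (not_le x) x.inv he (htr e he2)
  have hcomm : ∀ b ∈ S ⊓ F, ∀ a ∈ S ⊓ E, b * a = a * b := by
    intro b hb a ha
    have nA : b ∈ normalizer ((S ⊓ E : Subgroup G) : Set G) :=
      le_normalizer_inf (K := S ⊓ normalizer (E : Set G)) (inf_le_left.trans le_normalizer) inf_le_right ⟨hb.1, s.nF hb⟩
    have nB : a ∈ normalizer ((S ⊓ F : Subgroup G) : Set G) :=
      le_normalizer_inf (K := S ⊓ normalizer (F : Set G)) (inf_le_left.trans le_normalizer) inf_le_right ⟨ha.1, s.nE ha⟩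
    have h1 : ⁅b, a⁆ ∈ S ⊓ E := by
      rw [commutatorElement_def]
      exact mul_mem ((mem_normalizer_iff.mp nA _).mp ha) (inv_mem ha)
    have h2 : ⁅b, a⁆ ∈ S ⊓ F := by
      have e1 : ⁅b, a⁆ = b * (a * b⁻¹ * a⁻¹) := by rw [commutatorElement_def]; group
      rw [e1]
      exact mul_mem hb ((mem_normalizer_iff.mp nB _).mp (inv_mem hb))
    rw [← commutatorElement_eq_one_iff_mul_comm]
    exact hAB _ h1 h2
  obtain ⟨b, hb, hbz⟩ := qF.exists_sq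
  obtain ⟨a, ha, haz, hab⟩ := s.lift qE iE iF hb hbz
  have hnW : S ⊓ E ≤ normalizer (WE 3 E : Set G) := inf_le_right.trans s.h.sb.WE_norm
  have hbW : b ∈ normalizer (WE 3 E : Set G) := by rw [s.hW]; exact s.k.sb.WE_norm hb.2
  refine qE.no_comm (X := WE 3 E) (Y := ⊥) s.h.W_pgroup ?_ ?_ hnW (bot_norm _) ha haz (hcomm b hb)
    ⟨mul_mem (inv_mem (hnW ha)) hbW, bot_norm ⊤ (mem_top _), ?_⟩
  · intro hle
    apply s.h.sb.WE_not
    exact hle.trans bot_le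
  · intro w hw
    rw [mem_bot, iE w hw]; group
  · intro w hw
    rw [mem_bot, commutatorElement_eq_one_iff_mul_comm]
    exact hab w (s.h.sb.WE_le_V hw)

/-- producing an element contradicting Lemma X -/
theorem gx (s : Sit S E F) (x : S3x E zE) (hFY : pCoreOf 3 F ≤ pCoreOf 3 E ⊔ OZ 3 (pCore 3 G)) {c d : G}
    (hc : c ∈ (S ⊓ E) ⊔ (S ⊓ F)) (hcV : ∀ v ∈ OZ 3 (pCore 3 G), c * v = v * c) (hcd : c = zE * d)
    (hd : Tr (pCoreOf 3 E ⊔ OZ 3 (pCore 3 G)) (OZ 3 (pCore 3 G)) d) : S3x.GX E c := by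
  refine ⟨s.mem_P2 hc, hcV, s.comm_Y hFY c hc, ?_⟩
  intro a ha
  have h1 := hd.t a ((le_sup_left : pCoreOf 3 E ≤ _) ha)
  have e1 : c * a * c⁻¹ * a = (zE * ⁅d, a⁆ * zE⁻¹) * (zE * a * zE⁻¹ * a) := by
    rw [hcd]; simp only [commutatorElement_def]; group
  rw [e1]
  exact mul_mem (V_mem_conj zE h1) (S3x.Om_V s.h.sb x (x.inv a ha))

theorem sevenB (s : Sit S E F) (qE : Q8 (S ⊓ E) zE) (qF : Q8 (S ⊓ F) zF) (iE : ∀ w ∈ WE 3 E, zE * w * zE⁻¹ = w⁻¹)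
    (iF : ∀ w ∈ WE 3 F, zF * w * zF⁻¹ = w⁻¹) (x : S3x E zE) (y : S3x F zF)
    (hEF : pCoreOf 3 E ≤ pCoreOf 3 F ⊔ OZ 3 (pCore 3 G)) (hFE : pCoreOf 3 F ≤ pCoreOf 3 E ⊔ OZ 3 (pCore 3 G)) :
    False := by
  obtain ⟨b, hb, hbz, hbA⟩ := s.exists_b qF
  obtain ⟨a, ha, haz, hab⟩ := s.lift qE iE iF hb hbz
  have hY3 : IsPGroup 3 ↥(OZ 3 (pCore 3 G)) := (isPGroup_pCore 3 G).to_le V_le
  have hcard : Nat.card ↥(pCoreOf 3 E ⊔ OZ 3 (pCore 3 G) : Subgroup G) = 9 * Nat.card ↥(OZ 3 (pCore 3 G)) := by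
    have h1 := SubgroupTools.card_sup_mul_card_inf (N := pCoreOf 3 E) (H := OZ 3 (pCore 3 G)) (V_le.trans (S3x.O_Q s.h.sb))
    have h2 : pCoreOf 3 E ⊓ OZ 3 (pCore 3 G) = OZ 3 (pCoreOf 3 E) := by
      apply le_antisymm
      · exact fun q hq => S3x.Q_V s.h.sb hq.1 hq.2
      · exact le_inf (OZ_le _) (S3x.Om_V s.h.sb x)
    rw [h2, x.cardQ] at h1
    have h3 : Nat.card ↥(pCoreOf 3 E ⊔ OZ 3 (pCore 3 G) : Subgroup G) * Nat.card ↥(OZ 3 (pCoreOf 3 E)) =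
        (9 * Nat.card ↥(OZ 3 (pCore 3 G))) * Nat.card ↥(OZ 3 (pCoreOf 3 E)) := by rw [h1]; ring
    exact Nat.eq_of_mul_eq_mul_right Nat.card_pos h3
  have hAY : S ⊓ E ≤ normalizer ((pCoreOf 3 E ⊔ OZ 3 (pCore 3 G) : Subgroup G) : Set G) :=
    fun a ha => S3x.k_Y (le_normalizer ha.2)
  have hYe : pCoreOf 3 E ⊔ OZ 3 (pCore 3 G) ≤ pCoreOf 3 F ⊔ OZ 3 (pCore 3 G) := sup_le hEF le_sup_right
  obtain ⟨a', ha', haz', ht⟩ := qE.six_sec (X := pCoreOf 3 E ⊔ OZ 3 (pCore 3 G)) (Y := OZ 3 (pCore 3 G)) (b := b)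
    le_sup_right (V_norm _) hY3 hcard hAY (V_norm _) (inv_Y s.h.sb x) (S3x.k_Y (s.nF hb)) (S3x.k_V b) (by
      intro q hq
      rw [hbz]
      exact inv_Y s.k.sb y q (hYe hq))
  have hd : Tr (pCoreOf 3 E ⊔ OZ 3 (pCore 3 G)) (OZ 3 (pCore 3 G)) (a'⁻¹ * b) := by
    refine ⟨mul_mem (inv_mem (hAY ha')) (S3x.k_Y (s.nF hb)), S3x.k_V _, ?_⟩
    intro q hq
    have := inv_mem (ht q hq)
    rwa [commutatorElement_inv] at this
  have hc : a⁻¹ * b ∈ (S ⊓ E) ⊔ (S ⊓ F) :=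
    mul_mem ((le_sup_left : S ⊓ E ≤ _) (inv_mem ha)) ((le_sup_right : S ⊓ F ≤ _) hb)
  have hh0 : a⁻¹ * a' ∈ S ⊓ E := mul_mem (inv_mem ha) ha'
  have hcd : a⁻¹ * b = (a⁻¹ * a') * (a'⁻¹ * b) := by group
  rcases qE.cases _ hh0 with h1 | h1 | h1
  · rw [h1, one_mul] at hcd
    apply hbA
    have hco : a⁻¹ * b ∈ pCore 3 G := by
      obtain ⟨n, hn⟩ := s.hS.pgroup ⟨a⁻¹ * b, sup_S hc⟩
      have hn' : (a⁻¹ * b) ^ 2 ^ n = 1 := congrArg Subtype.val hn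
      refine mem_O_of_chain s.h.sb.cp (S3x.Y_le_O s.h.sb) le_sup_right ?_ hab ?_ (s.comm_Y hFE _ hc) (n := n)
        (by rw [hn']; exact one_mem _)
      · rw [hcd]; exact hd.nX
      · rw [hcd]; exact hd.t
    have h2 := inf_eq_bot_of_pgroups (p := 3) (r := 2) (by norm_num) s.hS.pgroup (isPGroup_pCore 3 G) (sup_S hc) hco
    have h3 : a = b := inv_mul_eq_one.mp h2
    rw [← h3]; exact ha
  · rw [h1] at hcd
    exact S3x.lemX s.h.sb x (s.gx x hFE hc hab hcd hd) qE.mem.2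
  · have hcd2 : (a⁻¹ * b) * (a⁻¹ * b) = zE * (((a⁻¹ * a')⁻¹ * (a'⁻¹ * b) * ((a⁻¹ * a')⁻¹)⁻¹) * (a'⁻¹ * b)) := by
      rw [← h1]; group
    refine S3x.lemX s.h.sb x (s.gx x hFE (mul_mem hc hc) ?_ hcd2 ?_) qE.mem.2
    · intro v hv
      have : Commute (a⁻¹ * b) v := hab v hv
      exact (this.mul_left this).eq
    · exact (hd.conj (inv_mem (hAY hh0)) (S3x.k_V _)).mul hd

theorem false (s : Sit S E F) : False := by
  obtain ⟨zE, qE, iE, aE⟩ := s.h.z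
  obtain ⟨zF, qF, iF, aF⟩ := s.k.z
  rcases aE with aE | x
  · rcases aF with aF | y
    · exact s.nn qE qF iE iF aE aF
    · exact s.symm.en qF qE iF iE y aE
  · rcases aF with aF | y
    · exact s.en qE qF iE iF x aF
    · rcases s.dich x with h1 | h1
      · exact s.sevenA qE qF iE iF x h1
      · rcases s.symm.dich y with h2 | h2
        · exact s.symm.sevenA qF qE iF iE y h2
        · exact s.sevenB qE qF iE iF x y h1 h2

end Sit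

end Cfsg.Agent.Lib.BBPair
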