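import Cfsg.Agent.Lib.BBPair10

/-!
# Pairs of subnormal Baumann blocks (helper78): the case `p = 3`
-/

set_option autoImplicit false
set_option linter.unusedSectionVars false

namespace Cfsg.Agent.Lib.BBPair

open Subgroup Cfsg Cfsg.Agent.Lib.LocBase Cfsg.Agent.Lib.PReduced Cfsg.Agent.Lib.BBlock
open scoped commutatorElement

universe u
variable {G : Type u} [Group G] [Finite G]

namespace S3

variable {S E F : Subgroup G}

theorem sup_O (hS : IsSyl 2 S ⊤) (h : S3 S E) : E ⊔ pCore 3 G = (S ⊓ E) ⊔ pCore 3 G := by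
  apply le_antisymm
  · refine sup_le ?_ le_sup_right
    conv_lhs => rw [← (h.st hS).gen]
    exact sup_le (h.sb.Q_le.trans le_sup_right) le_sup_left
  · exact sup_le_sup_right inf_le_right _

theorem eq_of_inf (hS : IsSyl 2 S ⊤) (h : S3 S E) (k : S3 S F) (he : S ⊓ E = S ⊓ F) : E = F := by
  rw [← pRes_sup_eq h.sb.res (isPGroup_pCore 3 G) h.sb.O_norm, h.sup_O hS, he, ← k.sup_O hS,
    pRes_sup_eq k.sb.res (isPGroup_pCore 3 G) k.sb.O_norm]

theorem inj_aux (hS : IsSyl 2 S ⊤) : ∀ n : ℕ, ∀ E F : Subgroup G, S3 S E → S3 S F → WE 3 E = WE 3 F →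
    Nat.card ↥((S ⊓ E) ⊔ (S ⊓ F) : Subgroup G) ≤ n → E = F := by
  intro n
  induction n with
  | zero =>
    intro E F _ _ _ hcard
    have := Nat.card_pos (α := ↥((S ⊓ E) ⊔ (S ⊓ F) : Subgroup G))
    omega
  | succ n ih =>
    intro E F h k hW hcard
    by_contra hne
    have hAB : S ⊓ E ≠ S ⊓ F := fun he => hne (h.eq_of_inf hS k he)
    have key : ∀ E F : Subgroup G, S3 S E → S3 S F → WE 3 E = WE 3 F →
        Nat.card ↥((S ⊓ E) ⊔ (S ⊓ F) : Subgroup G) ≤ n + 1 → S ⊓ E ≠ S ⊓ F → S ⊓ F ≤ normalizer (E : Set G) := by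
      intro E F h k hW hcard hAB
      have hRp : IsPGroup 2 ↥((S ⊓ E) ⊔ (S ⊓ F) : Subgroup G) := hS.pgroup.to_le (sup_le inf_le_left inf_le_left)
      have hAR : S ⊓ E ≠ (S ⊓ E) ⊔ (S ⊓ F) := by
        intro he
        have h1 : S ⊓ F ≤ S ⊓ E := le_sup_right.trans he.ge
        exact hAB (Subgroup.eq_of_le_of_card_ge h1 (by rw [(h.st hS).cardA, (k.st hS).cardA])).symm
      obtain ⟨M, hM1, hM2, hM3⟩ := exists_normal_lt hRp le_sup_left hAR
      have hMc : Nat.card M ≤ n := by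
        have h1 : Nat.card M ≤ Nat.card ↥((S ⊓ E) ⊔ (S ⊓ F) : Subgroup G) := Subgroup.card_le_of_le hM2.le
        have h2 : Nat.card M ≠ Nat.card ↥((S ⊓ E) ⊔ (S ⊓ F) : Subgroup G) := by
          intro he
          exact hM2.ne (Subgroup.eq_of_le_of_card_ge hM2.le he.ge)
        omega
      intro b hb
      have hEb := h.map_conj hb.1
      have hbW : b ∈ normalizer (WE 3 E : Set G) := by rw [hW]; exact k.sb.WE_norm hb.2
      have hWb : WE 3 E = WE 3 (cj b E) := by rw [WE_map_conj, map_conj_eq_of_mem hbW]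
      have hc : Nat.card ↥((S ⊓ E) ⊔ (S ⊓ cj b E) : Subgroup G) ≤ n := by
        refine (Subgroup.card_le_of_le (sup_le hM1 ?_)).trans hMc
        have hinf : S ⊓ cj b E = cj b (S ⊓ E) := inf_map_conj hb.1
        rw [hinf]
        have h3 : M.map (MulAut.conj b).toMonoidHom = M :=
          map_conj_eq_of_mem (hM3 ((le_sup_right : S ⊓ F ≤ (S ⊓ E) ⊔ (S ⊓ F)) hb))
        rw [← h3]
        exact map_conj_mono b hM1
      have h4 := ih E (cj b E) h hEb hWb hc
      exact mem_normalizer_of_map_conj_eq h4.symm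
    exact Sit.false (S := S) (E := E) (F := F) ⟨hS, h, k, hW, key E F h k hW hcard hAB,
      key F E k h hW.symm (by rwa [sup_comm]) hAB.symm, hAB⟩

theorem cls (hS : IsSyl 2 S ⊤) : Cls 3 2 S 8 9 (S3 S : Subgroup G → Prop) :=
  ⟨fun _ h => h.st hS, fun _ h _ hs => h.map_conj hs, fun E F h k hW => inj_aux hS _ E F h k hW le_rfl⟩

/-- the case `p = 3` -/
theorem main (hS : IsSyl 2 S ⊤) (h : S3 S E) (k : S3 S F) : E = F ∨ ⁅E, F⁆ = ⊥ := by
  by_cases hne : E = F
  · exact Or.inl hne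
  right
  obtain ⟨h1, h2⟩ := (S3.cls hS).comm (by norm_num) hS.pgroup (by norm_num) h k hne
  have h3 : ⁅S ⊓ E, S ⊓ F⁆ = ⊥ := by
    rcases (S3.cls hS).main (by norm_num) hS.pgroup (by norm_num) _ E F h k le_rfl with h4 | h4
    · exact absurd h4 h1
    · exact h4
  obtain ⟨zE, qE, iE, aE⟩ := h.z
  obtain ⟨zF, qF, iF, aF⟩ := k.z
  refine h.sb.final k.sb h2 h1 (aE.imp_right fun x => x.exc) (aF.imp_right fun y => y.exc) ?_
  intro xE xF hDE hDF
  have hnot : ∀ {K : Subgroup G}, SB.Exc 3 K → pCoreOf 3 K = OZ 3 (pCoreOf 3 K) → False := by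
    intro K xK he
    apply xK.nab
    rw [commutator_eq_bot_iff_le_centralizer, he]
    exact (elem_iff.mp (elem_OZ 3 _)).1
  have x : S3x E zE := by
    rcases aE with aE | x
    · exact (hnot xE aE).elim
    · exact x
  have y : S3x F zF := by
    rcases aF with aF | y
    · exact (hnot xF aF).elim
    · exact y
  obtain ⟨D, Z, hD1, hD2, hDE', hDF', z1, z2, e1, e2, -, hDD⟩ := SB.exc_pair h.sb k.sb h2 xE xF hDE hDF
  have hEO : E ≤ normalizer (OZ 3 (pCoreOf 3 E) : Set G) :=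
    (le_normalizer_pCoreOf 3 E).trans (normalizer_le_normalizer_OZ 3 _)
  have hFO : F ≤ normalizer (OZ 3 (pCoreOf 3 F) : Set G) :=
    (le_normalizer_pCoreOf 3 F).trans (normalizer_le_normalizer_OZ 3 _)
  have hEZ : E ≤ normalizer (Z : Set G) := by rw [z1]; exact le_normalizer_inf hDE' hEO
  have hFZ : F ≤ normalizer (Z : Set G) := by rw [z2]; exact le_normalizer_inf hDF' hFO
  have hZD : Z ≤ D := by rw [z1]; exact inf_le_left
  have hDZ : D ≤ normalizer (Z : Set G) := (hD1.trans (pCoreOf_le E)).trans hEZ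
  have hDp : IsPGroup 3 D := (isPGroup_pCoreOf 3 E).to_le hD1
  have hcard : Nat.card D = 9 * Nat.card Z := by
    have h4 := SubgroupTools.card_sup_mul_card_inf (N := D) (H := OZ 3 (pCoreOf 3 E))
      (((OZ_le _).trans (pCoreOf_le E)).trans hDE')
    rw [e1, ← z1, x.cardQ] at h4
    have h5 : Nat.card D * Nat.card ↥(OZ 3 (pCoreOf 3 E)) = (9 * Nat.card Z) * Nat.card ↥(OZ 3 (pCoreOf 3 E)) := by
      rw [← h4]; ring
    exact Nat.eq_of_mul_eq_mul_right Nat.card_pos h5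
  have hzE : ∀ d ∈ D, zE * d * zE⁻¹ * d ∈ Z := by
    intro d hd
    rw [z1]
    refine ⟨mul_mem ?_ hd, x.inv d (hD1 hd)⟩
    exact (mem_normalizer_iff.mp (hDE' qE.mem.2) _).mp hd
  have hzF : ∀ d ∈ D, zF * d * zF⁻¹ * d ∈ Z := by
    intro d hd
    rw [z2]
    refine ⟨mul_mem ?_ hd, y.inv d (hD2 hd)⟩
    exact (mem_normalizer_iff.mp (hDF' qF.mem.2) _).mp hd
  obtain ⟨b, hb, hbz⟩ := qF.exists_sq
  obtain ⟨a, ha, haz, ht⟩ := qE.six_sec (X := D) (Y := Z) (b := b) hZD hDZ (hDp.to_le hZD) hcard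
    (inf_le_right.trans hDE') (inf_le_right.trans hEZ) hzE (hDF' hb.2) (hFZ hb.2) (by rw [hbz]; exact hzF)
  refine qE.no_comm (X := D) (Y := Z) hDp ?_ hzE (inf_le_right.trans hDE') (inf_le_right.trans hEZ) ha haz ?_
    ⟨mul_mem (inv_mem (hDE' ha.2)) (hDF' hb.2), mul_mem (inv_mem (hEZ ha.2)) (hFZ hb.2), ?_⟩
  · intro hle
    have h4 := Subgroup.card_le_of_le hle
    have h5 : 0 < Nat.card Z := Nat.card_pos
    omega
  · intro c hc
    rw [← commutatorElement_eq_one_iff_mul_comm]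
    have h4 : ⁅c, b⁆ ∈ ⁅S ⊓ E, S ⊓ F⁆ := commutator_mem_commutator hc hb
    rw [h3, mem_bot] at h4
    rw [← commutatorElement_inv, h4, _root_.inv_one]
  · intro q hq
    have := inv_mem (ht q hq)
    rwa [commutatorElement_inv] at this

end S3

end Cfsg.Agent.Lib.BBPair
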