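import Cfsg.Agent.Lib.ClSmall
import Cfsg.Agent.Lib.ClSL2
import Cfsg.Agent.Lib.SLTwoThree

set_option autoImplicit false

open Matrix MatrixGroups Subgroup
open scoped commutatorElement

namespace Cfsg.Agent.Lib.ClSL23

open ClSL2 ClSLn

abbrev G := Matrix.SpecialLinearGroup (Fin 2) (ZMod 3)

instance : Fact (Nat.Prime 3) := ⟨by norm_num⟩

theorem inv_unique : ∀ x : G, x * x = 1 → x = 1 ∨ x = -1 := by decide +kernel

theorem cases_elt : ∀ x : G, x * x * x = 1 ∨ x * x * x = -1 ∨ x * x = -1 := by decide +kernel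

theorem conj_four : ∀ x y : G, x * x = -1 → y * y = -1 → ∃ g : G, g * x * g⁻¹ = y := by decide +kernel

def T : G := ⟨!![1, 1; 0, 1], by decide⟩
def W : G := ⟨!![0, 2; 1, 0], by decide⟩

theorem conj_three : ∀ x : G, x * x * x = 1 → x = 1 ∨ ∃ g : G, g * x * g⁻¹ = T ∨ g * x * g⁻¹ = T⁻¹ := by decide +kernel

theorem T_eq : T = uS 1 := by
  apply Subtype.ext
  rw [coe_uS]
  rfl

theorem uS_pow : ∀ b : ZMod 3, uS b = T ^ b.val := by
  rw [T_eq]
  intro b
  have h : ∀ k : ℕ, (uS (1 : ZMod 3)) ^ k = uS (k : ZMod 3) := by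
    intro k
    induction k with
    | zero => simp [uS_zero]
    | succ k ih =>
      rw [pow_succ, ih]
      apply Subtype.ext
      simp [Matrix.mul_fin_two, add_comm]
  rw [h, ZMod.natCast_zmod_val]

theorem lS_eq (b : ZMod 3) : lS b = W * uS (-b) * W⁻¹ := by
  rw [eq_mul_inv_iff_mul_eq]
  apply Subtype.ext
  change (lS b).1 * W.1 = W.1 * (uS (-b)).1
  rw [coe_lS, coe_uS]
  have h2 : (2 : ZMod 3) = -1 := by decide
  simp [W, Matrix.mul_fin_two, h2]

theorem eq_top_of_three (N : Subgroup G) [hN : N.Normal] (x : G) (hx : x ∈ N) (hx1 : x ≠ 1) (hx3 : x * x * x = 1) :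
    N = ⊤ := by
  have hT : T ∈ N := by
    rcases conj_three x hx3 with h | ⟨g, h | h⟩
    · exact absurd h hx1
    · rw [← h]; exact hN.conj_mem _ hx g
    · rw [← inv_inv T, ← h]; exact inv_mem (hN.conj_mem _ hx g)
  have hu : ∀ b : ZMod 3, uS b ∈ N := fun b => by
    rw [uS_pow]; exact pow_mem hT _
  apply eq_top_of_uS_lS N hu
  intro b
  rw [lS_eq]
  exact hN.conj_mem _ (hu _) _

theorem neg_mem_center : (-1 : G) ∈ Subgroup.center G := by
  rw [Subgroup.mem_center_iff]
  intro g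
  simp

theorem mem_center_iff' : ∀ x : G, x ∈ Subgroup.center G ↔ x = 1 ∨ x = -1 := by
  intro x
  constructor
  · intro h
    rw [Subgroup.mem_center_iff] at h
    have : ∀ x : G, T * x = x * T → W * x = x * W → x = 1 ∨ x = -1 := by decide +kernel
    exact this x (h T) (h W)
  · rintro (rfl | rfl)
    · exact one_mem _
    · exact neg_mem_center

theorem normal_cases (N : Subgroup G) [hN : N.Normal] : N = ⊥ ∨ N = ⊤ ∨ N = Subgroup.center G ∨
    (∀ x, x ∈ N ↔ x = 1 ∨ x = -1 ∨ x * x = -1) := by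
  by_cases h3 : ∃ x ∈ N, x ≠ 1 ∧ x * x * x = 1
  · obtain ⟨x, hx, hx1, hx3⟩ := h3
    exact Or.inr (Or.inl (eq_top_of_three N x hx hx1 hx3))
  push Not at h3
  have h6 : ∀ x : G, x * x * x = -1 → x ≠ -1 → x * x ≠ 1 ∧ (x * x) * (x * x) * (x * x) = 1 := by decide +kernel
  have hcl : ∀ x ∈ N, x = 1 ∨ x = -1 ∨ x * x = -1 := by
    intro x hx
    rcases cases_elt x with h | h | h
    · left
      by_contra hne
      exact h3 x hx hne h
    · right; left
      by_contra hne
      obtain ⟨h1, h2⟩ := h6 x h hne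
      exact h3 _ (mul_mem hx hx) h1 h2
    · exact Or.inr (Or.inr h)
  by_cases h4 : ∃ x ∈ N, x * x = -1
  · right; right; right
    obtain ⟨x, hx, hx2⟩ := h4
    have hm : (-1 : G) ∈ N := by rw [← hx2]; exact mul_mem hx hx
    intro y
    refine ⟨hcl y, ?_⟩
    rintro (rfl | rfl | h)
    · exact one_mem _
    · exact hm
    · obtain ⟨g, hg⟩ := conj_four x y hx2 h
      rw [← hg]
      exact hN.conj_mem _ hx g
  push Not at h4
  have hcl2 : ∀ x ∈ N, x = 1 ∨ x = -1 := by
    intro x hx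
    rcases hcl x hx with h | h | h
    · exact Or.inl h
    · exact Or.inr h
    · exact absurd h (h4 x hx)
  by_cases hm : (-1 : G) ∈ N
  · right; right; left
    ext x
    rw [mem_center_iff']
    refine ⟨hcl2 x, ?_⟩
    rintro (rfl | rfl)
    · exact one_mem _
    · exact hm
  · left
    rw [eq_bot_iff]
    intro x hx
    rcases hcl2 x hx with h | h
    · rw [h]; exact one_mem _
    · rw [h] at hx; exact absurd hx hm

theorem card_center_eq : Nat.card (Subgroup.center G) = 2 := by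
  have := card_center_SL (F := ZMod 3) (q := 3) (ZMod.card 3) 2 (by norm_num)
  simpa using this

/-- the quaternion subgroup. -/
theorem exists_Q : ∃ Q : Subgroup G, Q.Normal ∧ Q.index = 3 ∧ Nonempty (Q ≃* QuaternionGroup 2) ∧ Nat.card Q = 8 ∧
    (∀ x, x ∈ Q ↔ x = 1 ∨ x = -1 ∨ x * x = -1) := by
  obtain ⟨Q, hQ, hi, he⟩ := ClSmall.sl2_three (F := ZMod 3) (ZMod.card 3)
  have hc : Nat.card Q = 8 := by
    have := Subgroup.card_mul_index Q
    rw [hi, SLTwoThree.card_SL] at this
    omega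
  refine ⟨Q, hQ, hi, he, hc, ?_⟩
  rcases normal_cases Q with h | h | h | h
  · rw [h, Subgroup.card_bot] at hc; omega
  · rw [h, Subgroup.card_top, SLTwoThree.card_SL] at hc; omega
  · rw [h, card_center_eq] at hc; omega
  · exact h

theorem commutator_eq {Q : Subgroup G} (hQn : Q.Normal) (hi : Q.index = 3)
    (hQ : ∀ x, x ∈ Q ↔ x = 1 ∨ x = -1 ∨ x * x = -1) : commutator G = Q := by
  haveI : Fact (Nat.card (G ⧸ Q)).Prime := ⟨by
    change (Q.index).Prime
    rw [hi]; norm_num⟩
  have hle : commutator G ≤ Q := by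
    haveI : IsCyclic (G ⧸ Q) := isCyclic_of_prime_card (p := Nat.card (G ⧸ Q)) rfl
    letI : CommGroup (G ⧸ Q) := IsCyclic.commGroup
    rw [commutator_def, Subgroup.commutator_le]
    intro a _ b _
    rw [← QuotientGroup.ker_mk' Q, MonoidHom.mem_ker, map_commutatorElement, commutatorElement_eq_one_iff_mul_comm]
    exact mul_comm _ _
  have hmem : ⁅T, W⁆ ∈ commutator G := Subgroup.commutator_mem_commutator (Subgroup.mem_top _) (Subgroup.mem_top _)
  have hne : ¬ (⁅T, W⁆ = 1 ∨ ⁅T, W⁆ = -1) := by decide +kernel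
  rcases normal_cases (commutator G) with h | h | h | h
  · exfalso
    apply hne
    left
    rw [h] at hmem
    exact hmem
  · exfalso
    have h2 : Q = ⊤ := by rw [eq_top_iff, ← h]; exact hle
    rw [h2, Subgroup.index_top] at hi
    omega
  · exfalso
    rw [h, mem_center_iff'] at hmem
    exact hne hmem
  · ext x
    rw [h, hQ]

end Cfsg.Agent.Lib.ClSL23
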