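import Cfsg.Agent.Lib.BBPair11
import Cfsg.Agent.Lib.ClSL23

/-!
# Pairs of subnormal Baumann blocks (helper78): small linear groups and sections
-/

set_option autoImplicit false
set_option linter.unusedSectionVars false

namespace Cfsg.Agent.Lib.BBPair

open Subgroup Cfsg Cfsg.Agent.Lib.LocBase Cfsg.Agent.Lib.PReduced Cfsg.Agent.Lib.BBlock
open scoped commutatorElement

universe u
variable {G : Type u} [Group G] [Finite G] {p : ℕ} [hp : Fact p.Prime]

theorem card_section {M : Type*} [Group M] {U U₀ : Subgroup G} (hU : U₀ ≤ U) (ψ : ↥U →* M) {r : Subgroup M}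
    (hψ : ψ.range = r) (hk : ∀ u : ↥U, ψ u = 1 ↔ (u : G) ∈ U₀) : Nat.card ↥U = Nat.card ↥r * Nat.card ↥U₀ := by
  have h1 : ψ.ker = U₀.subgroupOf U := by
    ext u
    rw [MonoidHom.mem_ker, hk, mem_subgroupOf]
  have h2 := Subgroup.card_mul_index ψ.ker
  rw [Subgroup.index_ker, h1, Nat.card_congr (Subgroup.subgroupOfEquivOfLe hU).toEquiv, hψ] at h2
  rw [← h2, mul_comm]

theorem card_of_quot {H : Type*} [Group H] {E : Subgroup G} (e : (↥E ⧸ pCore p ↥E) ≃* H) :
    Nat.card E = Nat.card H * Nat.card ↥(pCoreOf p E) := by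
  rw [Subgroup.card_eq_card_quotient_mul_card_subgroup (pCore p ↥E), Nat.card_congr e.toEquiv,
    ← pCoreOf_subgroupOf, Nat.card_congr (Subgroup.subgroupOfEquivOfLe (pCoreOf_le E)).toEquiv]

section field

variable {F : Type*} [Field F] {K : Type*} [Field K]

theorem map_surj (e : F ≃+* K) : Function.Surjective
    (Matrix.SpecialLinearGroup.map (n := Fin 2) (e : F →+* K)) := by
  intro g
  refine ⟨Matrix.SpecialLinearGroup.map (e.symm : K →+* F) g, ?_⟩
  apply Subtype.ext
  ext i j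
  simp

theorem map_inj (e : F ≃+* K) : Function.Injective
    (Matrix.SpecialLinearGroup.map (n := Fin 2) (e : F →+* K)) := by
  intro g g' h
  apply Subtype.ext
  ext i j
  have := congrArg (fun M : Matrix.SpecialLinearGroup (Fin 2) K => (M : Matrix (Fin 2) (Fin 2) K) i j) h
  simpa using this

theorem map_comm (e : F ≃+* K) : (commutator (Matrix.SpecialLinearGroup (Fin 2) F)).map
    (Matrix.SpecialLinearGroup.map (n := Fin 2) (e : F →+* K)) = commutator (Matrix.SpecialLinearGroup (Fin 2) K) := by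
  rw [map_commutator_eq, MonoidHom.range_eq_top.mpr (map_surj e)]
  rfl

theorem card_comm (e : F ≃+* K) : Nat.card ↥(commutator (Matrix.SpecialLinearGroup (Fin 2) F)) =
    Nat.card ↥(commutator (Matrix.SpecialLinearGroup (Fin 2) K)) := by
  rw [← map_comm e]
  exact Nat.card_congr ((commutator (Matrix.SpecialLinearGroup (Fin 2) F)).equivMapOfInjective _ (map_inj e)).toEquiv

theorem acts_map (e : F ≃+* K) {E U U₀ : Subgroup G}
    (h : ActsAsSL2OnSection F (commutator (Matrix.SpecialLinearGroup (Fin 2) F)) E U U₀) :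
    ActsAsSL2OnSection K (commutator (Matrix.SpecialLinearGroup (Fin 2) K)) E U U₀ := by
  obtain ⟨h1, h2, ρ, ψ, hρ, hψ, hker, hact⟩ := h
  let f : (Fin 2 → F) →+ (Fin 2 → K) :=
    { toFun := fun v i => e (v i)
      map_zero' := by ext i; simp
      map_add' := fun v w => by ext i; simp }
  refine ⟨h1, h2, (Matrix.SpecialLinearGroup.map (e : F →+* K)).comp ρ, (AddMonoidHom.toMultiplicative f).comp ψ,
    ?_, ?_, ?_, ?_⟩
  · rw [MonoidHom.range_comp, hρ, map_comm]
  · intro v
    obtain ⟨u, hu⟩ := hψ (Multiplicative.ofAdd (fun i => e.symm (Multiplicative.toAdd v i)))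
    refine ⟨u, ?_⟩
    change Multiplicative.ofAdd (f (Multiplicative.toAdd (ψ u))) = v
    rw [hu]
    apply Multiplicative.toAdd.injective
    ext i
    simp [f]
  · intro u
    rw [← hker u]
    constructor
    · intro hu
      have h3 : f (Multiplicative.toAdd (ψ u)) = 0 := congrArg Multiplicative.toAdd hu
      apply Multiplicative.toAdd.injective
      ext i
      have h4 := congrFun h3 i
      simp only [f, AddMonoidHom.coe_mk, ZeroHom.coe_mk, Pi.zero_apply, EmbeddingLike.map_eq_zero_iff] at h4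
      exact h4
    · intro hu
      change Multiplicative.ofAdd (f (Multiplicative.toAdd (ψ u))) = 1
      rw [hu]
      change Multiplicative.ofAdd (f 0) = 1
      rw [map_zero]
      rfl
  · intro g u
    obtain ⟨w, hw1, hw2⟩ := hact g u
    refine ⟨w, hw1, ?_⟩
    change f (Multiplicative.toAdd (ψ w)) = _
    rw [hw2]
    ext i
    change e (((ρ g : Matrix (Fin 2) (Fin 2) F).mulVec (Multiplicative.toAdd (ψ u))) i) = _
    have := RingHom.map_mulVec (e : F →+* K) (ρ g : Matrix (Fin 2) (Fin 2) F) (Multiplicative.toAdd (ψ u)) i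
    exact this

theorem card_acts [Fintype F] {R : Subgroup (Matrix.SpecialLinearGroup (Fin 2) F)} {E U U₀ : Subgroup G}
    (h : ActsAsSL2OnSection F R E U U₀) : Nat.card U = Fintype.card F ^ 2 * Nat.card U₀ := by
  obtain ⟨h1, h2, ρ, ψ, hρ, hψ, hker, hact⟩ := h
  rw [card_section h2 ψ (MonoidHom.range_eq_top.mpr hψ) hker, Subgroup.card_top]
  congr 1
  have : Nat.card (Multiplicative (Fin 2 → F)) = Nat.card (Fin 2 → F) := rfl
  rw [this, Nat.card_eq_fintype_card, Fintype.card_fun, Fintype.card_fin]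

end field

theorem card_comm_two {F : Type*} [Field F] [Fintype F] (hF : Fintype.card F = 2) :
    Nat.card ↥(commutator (Matrix.SpecialLinearGroup (Fin 2) F)) = 3 := by
  obtain ⟨e⟩ := ClSmall.sl2_two hF
  have h1 : (commutator (Matrix.SpecialLinearGroup (Fin 2) F)).map e.toMonoidHom = commutator (Equiv.Perm (Fin 3)) := by
    rw [map_commutator_eq, MonoidHom.range_eq_top.mpr e.surjective]
    rfl
  have h2 : Nat.card ↥(commutator (Matrix.SpecialLinearGroup (Fin 2) F)) = Nat.card ↥(commutator (Equiv.Perm (Fin 3))) := by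
    rw [← h1]
    exact Nat.card_congr ((commutator (Matrix.SpecialLinearGroup (Fin 2) F)).equivMapOfInjective _ e.injective).toEquiv
  rw [h2]
  have hle : commutator (Equiv.Perm (Fin 3)) ≤ alternatingGroup (Fin 3) := by
    rw [_root_.commutator_def, Subgroup.commutator_le]
    intro a _ b _
    rw [Equiv.Perm.mem_alternatingGroup, commutatorElement_def]
    simp only [map_mul, map_inv]
    rw [mul_comm (Equiv.Perm.sign a) (Equiv.Perm.sign b)]
    generalize Equiv.Perm.sign a = x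
    generalize Equiv.Perm.sign b = y
    group
  have hc : Nat.card ↥(alternatingGroup (Fin 3)) = 3 := by
    rw [nat_card_alternatingGroup]
    simp [Nat.factorial]
  have h3 : Nat.card ↥(commutator (Equiv.Perm (Fin 3))) ∣ Nat.card ↥(alternatingGroup (Fin 3)) :=
    Subgroup.card_dvd_of_le hle
  rw [hc] at h3
  rcases (Nat.dvd_prime Nat.prime_three).mp h3 with h4 | h4
  · exfalso
    have h5 := Subgroup.card_eq_one.mp h4
    rw [commutator_eq_bot_iff] at h5
    have h6 : ∀ a b : Equiv.Perm (Fin 3), a * b = b * a := fun a b => by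
      have := h5
      exact (isMulCommutative_iff.mp this) a b
    revert h6
    decide
  · exact h4

/-- the involution of a Sylow 2-subgroup of a block with quaternion quotient -/
theorem z_of {S E U U₀ : Subgroup G} (hcardA : Nat.card ↥(S ⊓ E) = 8)
    (hcardE : Nat.card E = 8 * Nat.card ↥(pCoreOf 3 E))
    (h : ActsAsSL2OnSection (ZMod 3) (commutator (Matrix.SpecialLinearGroup (Fin 2) (ZMod 3))) E U U₀) :
    ∃ z, Q8 (S ⊓ E) z ∧ ∀ u ∈ U, z * u * z⁻¹ * u ∈ U₀ := by
  obtain ⟨h1, h2, ρ, ψ, hρ, hψ, hker, hact⟩ := h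
  obtain ⟨Q, hQn, hQi, -, hQ8, hQm⟩ := ClSL23.exists_Q
  have hcQ := ClSL23.commutator_eq hQn hQi hQm
  rw [hcQ] at hρ
  -- the kernel is a `3`-group
  have hkc : Nat.card ρ.ker = Nat.card ↥(pCoreOf 3 E) := by
    have h3 := Subgroup.card_mul_index ρ.ker
    rw [Subgroup.index_ker, hρ, hQ8, hcardE, mul_comm] at h3
    exact Nat.eq_of_mul_eq_mul_left (by norm_num) h3
  have hinj : ∀ a : ↥E, (a : G) ∈ S ⊓ E → ρ a = 1 → a = 1 := by
    intro a ha ha1
    obtain ⟨k, hk⟩ := (IsPGroup.iff_card).mp (isPGroup_pCoreOf 3 E)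
    have h3 : orderOf a ∣ 3 ^ k := by
      rw [← hk, ← hkc]
      exact Subgroup.orderOf_dvd_natCard _ (MonoidHom.mem_ker.mpr ha1)
    have h4 : orderOf a ∣ 8 := by
      rw [← Subgroup.orderOf_coe, ← hcardA]
      exact Subgroup.orderOf_dvd_natCard _ ha
    have h5 : Nat.Coprime 8 (3 ^ k) := Nat.Coprime.pow_right k (by norm_num)
    have h6 : orderOf a ∣ 1 := by
      rw [← h5]
      exact Nat.dvd_gcd h4 h3
    exact orderOf_eq_one_iff.mp (Nat.dvd_one.mp h6)
  have hmemQ : ∀ a : ↥E, ρ a ∈ Q := by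
    intro a
    rw [← hρ]
    exact ⟨a, rfl⟩
  let f : ↥(S ⊓ E) → ↥Q := fun a => ⟨ρ ⟨a, a.2.2⟩, hmemQ _⟩
  have hf : Function.Injective f := by
    intro a b hab
    have h3 : ρ ⟨a, a.2.2⟩ = ρ ⟨b, b.2.2⟩ := congrArg Subtype.val hab
    have h4 : ρ (⟨a, a.2.2⟩ * ⟨b, b.2.2⟩⁻¹) = 1 := by
      rw [map_mul, map_inv, h3, mul_inv_cancel]
    have h5 := hinj _ (mul_mem a.2 (inv_mem b.2)) h4
    have h6 : (a : G) * (b : G)⁻¹ = 1 := congrArg Subtype.val h5
    exact Subtype.ext (mul_inv_eq_one.mp h6)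
  have hs : Function.Surjective f := by
    have _ := Fintype.ofFinite ↥(S ⊓ E)
    have _ := Fintype.ofFinite ↥Q
    have heq : Nat.card ↥(S ⊓ E) = Nat.card ↥Q := by rw [hcardA, hQ8]
    exact ((Fintype.bijective_iff_injective_and_card f).mpr ⟨hf, by
      rw [← Nat.card_eq_fintype_card, ← Nat.card_eq_fintype_card]; exact heq⟩).2
  obtain ⟨⟨z, hz⟩, hzf⟩ := hs ⟨-1, (hQm _).mpr (Or.inr (Or.inl rfl))⟩
  have hρz : ρ ⟨z, hz.2⟩ = -1 := congrArg Subtype.val hzf
  refine ⟨z, ⟨hcardA, hz, ?_, ?_⟩, ?_⟩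
  · intro hc
    have h3 : (⟨z, hz.2⟩ : ↥E) = 1 := Subtype.ext hc
    rw [h3, map_one] at hρz
    revert hρz
    decide
  · intro a ha
    have hsub : ∀ x y : ↥E, (x : G) ∈ S ⊓ E → (y : G) ∈ S ⊓ E → ρ x = ρ y → x = y := by
      intro x y hx hy hxy
      have h4 : ρ (x * y⁻¹) = 1 := by rw [map_mul, map_inv, hxy, mul_inv_cancel]
      exact mul_inv_eq_one.mp (hinj _ (mul_mem hx (inv_mem hy)) h4)
    rcases (hQm _).mp (hmemQ ⟨a, ha.2⟩) with h3 | h3 | h3
    · left
      exact congrArg Subtype.val (hinj ⟨a, ha.2⟩ ha h3)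
    · right; left
      exact congrArg Subtype.val (hsub ⟨a, ha.2⟩ ⟨z, hz.2⟩ ha hz (h3.trans hρz.symm))
    · right; right
      rw [← map_mul] at h3
      exact congrArg Subtype.val (hsub (⟨a, ha.2⟩ * ⟨a, ha.2⟩) ⟨z, hz.2⟩ (mul_mem ha ha) hz (h3.trans hρz.symm))
  · intro u hu
    obtain ⟨w, hw1, hw2⟩ := hact ⟨z, hz.2⟩ ⟨u, hu⟩
    rw [hρz] at hw2
    have h3 : ψ (w * ⟨u, hu⟩) = 1 := by
      rw [map_mul]
      apply Multiplicative.toAdd.injective
      rw [toAdd_mul, hw2]
      ext i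
      simp [Matrix.neg_mulVec]
    have h4 := (hker _).mp h3
    rw [Subgroup.coe_mul, hw1] at h4
    exact h4

end Cfsg.Agent.Lib.BBPair
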