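import Cfsg.Agent.Lib.BBPair12

/-!
# Pairs of subnormal Baumann blocks (helper78): classification and the theorem
-/

set_option autoImplicit false
set_option linter.unusedSectionVars false

namespace Cfsg.Agent.Lib.BBPair

open Subgroup Cfsg Cfsg.Agent.Lib.LocBase Cfsg.Agent.Lib.PReduced Cfsg.Agent.Lib.BBlock
open scoped commutatorElement

universe u
variable {G : Type u} [Group G] [Finite G] {p : ℕ} [hp : Fact p.Prime]

theorem alt_of {T E : Subgroup G} (h : IsBaumannBlock p T E) : pCoreOf p E = OZ p (pCoreOf p E) ∨ SB.Exc p E := by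
  obtain ⟨h1, h2, h3, h4, h5⟩ := h
  rcases h5 with ⟨F, hF, hFin, n, hn, -, hact, hq⟩ | ⟨-, m, -, hact, hq⟩
  · rcases hq with hq | ⟨hp3, hact2, hq1, -, hq2, hq3, -⟩
    · exact Or.inl hq
    · right
      have := Finite.of_fintype F
      refine ⟨fun X hX1 hX2 hX3 => sl2_irr hact2 hX1 hX2 hX3, ?_, ?_⟩
      · rw [hq1, ← hq2]
        intro hb
        rw [hb, Subgroup.card_bot] at hq3
        have h6 : 1 < Fintype.card F := Fintype.one_lt_card
        rw [hn, hp3, ← hq3] at h6
        omega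
      · rw [hq1]; exact inf_le_left
  · exact Or.inl hq

theorem not_exc {E : Subgroup G} (h : pCoreOf p E = OZ p (pCoreOf p E)) (x : SB.Exc p E) : False := by
  apply x.nab
  rw [commutator_eq_bot_iff_le_centralizer, h]
  exact (elem_iff.mp (elem_OZ p _)).1

theorem sb_of (hG : centralizer (pCore p G : Set G) ≤ pCore p G) {T E : Subgroup G} (hT : IsSyl p T ⊤)
    (h : IsBaumannBlock p T E) (hs : Subn E ⊤) : SB p E := ⟨hG, ⟨T, blk_of hT h⟩, hs, h.2.2.1⟩

theorem quasi_sl {F : Type} [Field F] [Fintype F] (h3 : 3 < Fintype.card F) {E : Subgroup G}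
    (e : (↥E ⧸ pCore p ↥E) ≃* ↥(commutator (Matrix.SpecialLinearGroup (Fin 2) F))) :
    IsQuasisimple (↥E ⧸ pCore p ↥E) := by
  have hq := SLQuasi.quasisimple_SL (F := F) (n := 2) le_rfl (fun _ => SLQuasi.exists_sq_ne_one h3)
  have htop : commutator (Matrix.SpecialLinearGroup (Fin 2) F) = ⊤ := hq.1.1
  exact Components.quasisimple_congr
    ((e.trans ((MulEquiv.subgroupCongr htop).trans Subgroup.topEquiv)).symm) hq

theorem quasi_alt {m : ℕ} (hm : 2 ≤ m) {E : Subgroup G}
    (e : (↥E ⧸ pCore p ↥E) ≃* ↥(alternatingGroup (Fin (2 * m + 1)))) : IsQuasisimple (↥E ⧸ pCore p ↥E) := by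
  have h5 : 5 ≤ Nat.card (Fin (2 * m + 1)) := by rw [Nat.card_eq_fintype_card, Fintype.card_fin]; omega
  have hs : IsSimpleGroup ↥(alternatingGroup (Fin (2 * m + 1))) := alternatingGroup.isSimpleGroup h5
  refine Components.quasisimple_congr e.symm (Components.quasisimple_of_simple ?_)
  intro hc
  have h6 := alternatingGroup.center_eq_bot (α := Fin (2 * m + 1)) (by omega)
  have h7 : center ↥(alternatingGroup (Fin (2 * m + 1))) = ⊤ := by
    rw [eq_top_iff]
    intro x _
    rw [mem_center_iff]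
    intro y
    exact isMulCommutative_iff.mp hc y x
  have h8 : (⊥ : Subgroup ↥(alternatingGroup (Fin (2 * m + 1)))) = ⊤ := h6.symm.trans h7
  exact bot_ne_top h8

/-- for `p = 3`, quaternion quotient -/
theorem S3_of {S T E : Subgroup G} (hG : centralizer (pCore 3 G : Set G) ≤ pCore 3 G) (hS : IsSyl 2 S ⊤)
    (hT : IsSyl 3 T ⊤) (hs : Subn E ⊤) (hB : IsBaumannBlock 3 T E) {F : Type} [Field F] [Fintype F] {n : ℕ}
    (hF : Fintype.card F = 3) (hn : Fintype.card F = 3 ^ n)
    (hiso : Nonempty (↥E ⧸ pCore 3 ↥E ≃* ↥(commutator (Matrix.SpecialLinearGroup (Fin 2) F))))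
    (hact : ActsAsSL2OnSection F (commutator (Matrix.SpecialLinearGroup (Fin 2) F)) E
          (omegaOneCenter 3 (pCoreOf 3 E)) (omegaOneCenter 3 (pCoreOf 3 E) ⊓ Subgroup.centralizer (E : Set G)))
    (hq : pCoreOf 3 E = omegaOneCenter 3 (pCoreOf 3 E) ∨
          (ActsAsSL2OnSection F (commutator (Matrix.SpecialLinearGroup (Fin 2) F)) E
              (pCoreOf 3 E) (omegaOneCenter 3 (pCoreOf 3 E)) ∧
            ⁅pCoreOf 3 E, pCoreOf 3 E⁆ = omegaOneCenter 3 (pCoreOf 3 E) ⊓ Subgroup.centralizer (E : Set G) ∧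
            E ⊓ Subgroup.centralizer (E : Set G) =
              omegaOneCenter 3 (pCoreOf 3 E) ⊓ Subgroup.centralizer (E : Set G) ∧
            Nat.card ↥(E ⊓ Subgroup.centralizer (E : Set G)) = 3 ^ n ∧
            ∀ b : G, b ∈ baumannSubgroupOf 3 T → b ∉ Subgroup.centralizer (omegaOneCenter 3 (pCoreOf 3 E) : Set G) →
              ¬ ⁅⁅pCoreOf 3 E, Subgroup.zpowers b⁆, Subgroup.zpowers b⁆ ≤ E ⊓ Subgroup.centralizer (E : Set G))) :
    S3 S E := by
  have sb := sb_of hG hT hB hs
  obtain ⟨e⟩ := hiso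
  have e3 : F ≃+* ZMod 3 := (ZMod.ringEquivOfPrime F Nat.prime_three hF).symm
  obtain ⟨Q, hQn, hQi, -, hQ8, hQm⟩ := ClSL23.exists_Q
  have hcQ := ClSL23.commutator_eq hQn hQi hQm
  have hcomm8 : Nat.card ↥(commutator (Matrix.SpecialLinearGroup (Fin 2) F)) = 8 := by
    rw [card_comm e3, hcQ, hQ8]
  have hcardE : Nat.card E = 8 * Nat.card ↥(pCoreOf 3 E) := by rw [card_of_quot e, hcomm8]
  have hcardO : Nat.card ↥(OZ 3 (pCoreOf 3 E)) = 9 * Nat.card ↥(ZE E) := by
    have := card_acts hact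
    rw [hF] at this
    exact this
  have hg := gen_of (p := 3) (r := 2) (by norm_num) hS sb (i := 3) (by rw [hcardE]; norm_num)
  have hcA : Nat.card ↥(S ⊓ E) = 8 := by rw [hg.1]; norm_num
  obtain ⟨z, hz8, hzi⟩ := z_of hcA hcardE (acts_map e3 hact)
  refine ⟨sb, hcardE, hcardO, z, hz8, ?_, ?_⟩
  · intro w hw
    have h1 : z * w * z⁻¹ * w ∈ ZE E := hzi w (sb.WE_le_OZ hw)
    have h2 : z * w * z⁻¹ * w ∈ WE 3 E := mul_mem (conj_mem_of_le_normalizer sb.WE_norm hz8.mem.2 hw) hw
    have h3 := W_Z (p := 3) (r := 2) (by norm_num) hS.pgroup sb hg.2 h2 h1.2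
    exact eq_inv_of_mul_eq_one_left h3
  · rcases hq with hq | ⟨hact2, hq1, hq2, hq3, hq4⟩
    · exact Or.inl hq
    · right
      obtain ⟨z2, hz8', hzi2⟩ := z_of hcA hcardE (acts_map e3 hact2)
      have hzz := hz8.unique hz8'
      rw [hzz] at hzi2
      have hn1 : (3 : ℕ) ^ n = 3 := by rw [← hn, hF]
      have hcardZ : Nat.card ↥(ZE E) = 3 := by
        have h1 : Nat.card ↥(ZE E) = 3 ^ n := by rw [← hq3, hq2]; rfl
        rw [h1, hn1]
      have hblk := blk_of hT hB
      have hfin := Finite.of_fintype F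
      refine ⟨⟨fun X hX1 hX2 hX3 => sl2_irr hact2 hX1 hX2 hX3, ?_, ?_⟩, hq1.le, ?_, hcardO, hcardZ, hzi2, ?_⟩
      · rw [hq1]
        intro hb
        have h1 : Nat.card ↥(ZE E) = 1 := by
          rw [Subgroup.card_eq_one]; exact hb
        omega
      · rw [hq1]; exact inf_le_left
      · have := card_acts hact2
        rw [hF] at this
        exact this
      · -- the element `b`
        have hJ := hblk.J_act hG
        have h1 : ∃ b ∈ thompsonSubgroupOf 3 T, b ∉ centralizer (WE 3 E : Set G) := by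
          by_contra hcon
          push Not at hcon
          apply hJ
          rw [commutator_eq_bot_iff_le_centralizer, Subgroup.le_centralizer_iff]
          exact hcon
        obtain ⟨b, hb1, hb2⟩ := h1
        have hbB : b ∈ baumannSubgroupOf 3 T := by
          rw [ThompsonJ.thompsonSubgroupOf_eq] at hb1
          exact JT_le_bau 3 T hb1
        have hbT : b ∈ T := by
          rw [bau_eq] at hbB
          exact hbB.1
        refine ⟨b, hblk.bau_le_N hbB, hT.pgroup.to_le (by rw [zpowers_le]; exact hbT), ?_⟩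
        have h3 := hq4 b hbB (fun hc => hb2 (centralizer_le sb.WE_le_OZ hc))
        rw [hq2] at h3
        exact h3

/-- for `p = 2` -/
theorem S2_of {T E : Subgroup G} (hG : centralizer (pCore 2 G : Set G) ≤ pCore 2 G) (hT : IsSyl 2 T ⊤)
    (hs : Subn E ⊤) (hB : IsBaumannBlock 2 T E) {H : Type*} [Group H] (e : (↥E ⧸ pCore 2 ↥E) ≃* H) (hH : Nat.card H = 3)
    (hab : pCoreOf 2 E = OZ 2 (pCoreOf 2 E))
    (hcard : Nat.card ↥(OZ 2 (pCoreOf 2 E)) = 4 * Nat.card ↥(OZ 2 (pCoreOf 2 E) ⊓ centralizer (E : Set G))) : S2 E :=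
  ⟨sb_of hG hT hB hs, by rw [card_of_quot e, hH], hab, hcard⟩

theorem solv_of_card {r k : ℕ} [hr : Fact r.Prime] {E : Subgroup G}
    (h : Nat.card E = r ^ k * Nat.card ↥(pCoreOf p E)) : Group.IsSolvable (↥E ⧸ pCore p ↥E) := by
  have h1 := Subgroup.card_eq_card_quotient_mul_card_subgroup (pCore p ↥E)
  rw [← pCoreOf_subgroupOf, Nat.card_congr (Subgroup.subgroupOfEquivOfLe (pCoreOf_le E)).toEquiv,
    pCoreOf_subgroupOf, h] at h1
  have h2 : Nat.card (↥E ⧸ pCore p ↥E) = r ^ k := (Nat.eq_of_mul_eq_mul_right Nat.card_pos h1).symm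
  have h3 : IsPGroup r (↥E ⧸ pCore p ↥E) := IsPGroup.of_card h2
  have := h3.isNilpotent
  infer_instance

theorem card_even3 : Nat.card {v : Fin 3 → ZMod 2 // ∑ i, v i = 0} = 4 := by
  rw [Nat.card_eq_fintype_card]
  decide

/-- the types of subnormal blocks -/
theorem classify (hG : centralizer (pCore p G : Set G) ≤ pCore p G) {T E : Subgroup G} (hT : IsSyl p T ⊤)
    (hs : Subn E ⊤) (hB : IsBaumannBlock p T E) :
    NTy p E ∨ (p = 2 ∧ S2 E) ∨ (p = 3 ∧ ∀ S : Subgroup G, IsSyl 2 S ⊤ → S3 S E) := by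
  have hB' := hB
  have hres := (blk_of hT hB).res
  have hact0 := (blk_of hT hB).act
  obtain ⟨h1, h2, h3, h4, h5⟩ := hB
  rcases h5 with ⟨F, hF, hFin, n, hn, hiso, hact, hq⟩ | ⟨hp2, m, hiso, hact, hq⟩
  · by_cases hF3 : 3 < Fintype.card F
    · left
      obtain ⟨e⟩ := hiso
      refine ⟨quasi_sl hF3 e, sl2_pelt hn hF3 hact, ?_⟩
      intro x
      rcases hq with hq | ⟨-, hact2, -⟩
      · exact (not_exc hq x).elim
      · exact sl2_pelt hn hF3 hact2
    · have hF1 : 1 < Fintype.card F := Fintype.one_lt_card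
      have hn0 : n ≠ 0 := by
        rintro rfl
        rw [pow_zero] at hn
        omega
      have hpF : p ∣ Fintype.card F := by rw [hn]; exact dvd_pow_self p hn0
      have hcases : Fintype.card F = 2 ∨ Fintype.card F = 3 := by omega
      rcases hcases with hc | hc
      · have hp2 : p = 2 := by
          rw [hc] at hpF
          exact (Nat.prime_dvd_prime_iff_eq hp.out Nat.prime_two).mp hpF
        right; left
        subst hp2
        refine ⟨rfl, ?_⟩
        obtain ⟨e⟩ := hiso
        refine S2_of hG hT hs hB' e (card_comm_two hc) ?_ ?_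
        · rcases hq with hq | ⟨h23, -⟩
          · exact hq
          · omega
        · have := card_acts hact
          rw [hc] at this
          exact this
      · have hp3 : p = 3 := by
          rw [hc] at hpF
          exact (Nat.prime_dvd_prime_iff_eq hp.out Nat.prime_three).mp hpF
        right; right
        subst hp3
        refine ⟨rfl, fun S hS => ?_⟩
        refine S3_of hG hS hT hs hB' hc hn hiso hact ?_
        rcases hq with hq | ⟨-, a1, a2, -, a4, a5, a6⟩
        · exact Or.inl hq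
        · exact Or.inr ⟨a1, a2, a4, a5, a6⟩
  · by_cases hm : 2 ≤ m
    · left
      obtain ⟨e⟩ := hiso
      exact ⟨quasi_alt hm e, alt_pelt hp2 hm hact, fun x => (not_exc hq x).elim⟩
    · subst hp2
      right; left
      refine ⟨rfl, ?_⟩
      obtain ⟨e⟩ := hiso
      have hm1 : m = 1 := by
        by_contra hne
        have hm0 : m = 0 := by omega
        subst hm0
        have hc : Nat.card ↥(alternatingGroup (Fin (2 * 0 + 1))) = 1 := by
          have : Subsingleton ↥(alternatingGroup (Fin (2 * 0 + 1))) := by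
            constructor
            rintro ⟨a, _⟩ ⟨b, _⟩
            apply Subtype.ext
            ext i
            have hi : ∀ j : Fin (2 * 0 + 1), (j : ℕ) = 0 := fun j => by omega
            rw [hi, hi]
          exact Nat.card_unique
        have hcE := card_of_quot e
        rw [hc, one_mul] at hcE
        have h6 : pCoreOf 2 E = E := Subgroup.eq_of_le_of_card_ge (pCoreOf_le E) hcE.le
        have h7 : IsPGroup 2 E := by rw [← h6]; exact isPGroup_pCoreOf 2 E
        have h8 := isPGroup_iff_pRes_eq_bot.mp h7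
        rw [hres] at h8
        apply hact0
        rw [h8]
        simp
      subst hm1
      refine S2_of hG hT hs hB' e ?_ hq ?_
      · rw [nat_card_alternatingGroup]
        simp [Nat.factorial]
      · obtain ⟨a1, a2, ρ, ψ, hρ, hsum, hψ, hker, -⟩ := hact
        have h6 := card_section a2 ψ rfl hker
        have h7 : Nat.card ↥ψ.range = 4 := by
          rw [← card_even3]
          refine Nat.card_congr ⟨fun v => ⟨fun i => Multiplicative.toAdd (v : Multiplicative (Fin (2 * 1 + 1) → ZMod 2)) i, ?_⟩,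
            fun v => ⟨Multiplicative.ofAdd (fun i => v.1 i), ?_⟩, ?_, ?_⟩
          · obtain ⟨_, ⟨u, rfl⟩⟩ := v
            exact hsum u
          · obtain ⟨u, hu⟩ := hψ v.1 v.2
            exact ⟨u, hu⟩
          · intro v; rfl
          · intro v; rfl
        rw [h7] at h6
        exact h6

/-- **S2986** -/
theorem equal_or_commute (hG : centralizer (pCore p G : Set G) ≤ pCore p G) {E F : Subgroup G}
    (hE : ∃ T : Subgroup G, IsSyl p T ⊤ ∧ IsBaumannBlock p T E) (hF : ∃ T : Subgroup G, IsSyl p T ⊤ ∧ IsBaumannBlock p T F)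
    (hEs : Subn E ⊤) (hFs : Subn F ⊤) : E = F ∨ ⁅E, F⁆ = ⊥ := by
  obtain ⟨T, hT, hBE⟩ := hE
  obtain ⟨T', hT', hBF⟩ := hF
  have sE := sb_of hG hT hBE hEs
  have sF := sb_of hG hT' hBF hFs
  have aE := alt_of hBE
  have aF := alt_of hBF
  have solv : ∀ {K : Subgroup G}, (p = 2 ∧ S2 K) ∨ (p = 3 ∧ ∀ S : Subgroup G, IsSyl 2 S ⊤ → S3 S K) →
      Group.IsSolvable (↥K ⧸ pCore p ↥K) := by
    rintro K (⟨hp2, x⟩ | ⟨hp3, x⟩)
    · subst hp2
      exact solv_of_card (r := 3) (k := 1) (by rw [x.cardE, pow_one])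
    · subst hp3
      obtain ⟨S, hS⟩ := exists_isSyl 2 (⊤ : Subgroup G)
      exact solv_of_card (r := 2) (k := 3) (by rw [(x S hS).cardE]; norm_num)
  rcases classify hG hT hEs hBE with nE | tE
  · rcases classify hG hT' hFs hBF with nF | tF
    · exact sE.nType sF nE (Or.inl nF) aE aF
    · exact sE.nType sF nE (Or.inr (solv tF)) aE aF
  · rcases classify hG hT' hFs hBF with nF | tF
    · rcases sF.nType sE nF (Or.inr (solv tE)) aF aE with h1 | h1
      · exact Or.inl h1.symm
      · right; rw [commutator_comm]; exact h1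
    · rcases tE with ⟨hp2, x⟩ | ⟨hp3, x⟩
      · rcases tF with ⟨-, y⟩ | ⟨hp3', -⟩
        · exact S2.main x y
        · omega
      · rcases tF with ⟨hp2', -⟩ | ⟨-, y⟩
        · omega
        · obtain ⟨S, hS⟩ := exists_isSyl 2 (⊤ : Subgroup G)
          exact S3.main hS (x S hS) (y S hS)

end Cfsg.Agent.Lib.BBPair
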