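import Cfsg.Agent.Lib.BBPair1

/-!
# Pairs of subnormal Baumann blocks (helper78): commuting irreducible actions, the exceptional case
-/

set_option autoImplicit false
set_option linter.unusedSectionVars false

namespace Cfsg.Agent.Lib.BBPair

open Subgroup Cfsg Cfsg.Agent.Lib.LocBase Cfsg.Agent.Lib.PReduced Cfsg.Agent.Lib.BBlock
open scoped commutatorElement

universe u
variable {G : Type u} [Group G] [Finite G] {p : ℕ} [hp : Fact p.Prime]

theorem comm_sup_le {Y L P : Subgroup G} (hL : L ≤ normalizer (Y : Set G)) (hP : P ≤ normalizer (Y : Set G)) :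
    ⁅Y ⊔ L, P⁆ ≤ Y ⊔ ⁅L, P⁆ := by
  rw [commutator_le]
  intro z hz x hx
  obtain ⟨y, hy, l, hl, rfl⟩ := exists_mul_of_mem_sup_of_le hL hz
  rw [commutatorElement_mul_left_eq_conj_mul]
  have h1 : y ∈ Y ⊔ ⁅L, P⁆ := (le_sup_left : Y ≤ _) hy
  refine Subgroup.mul_mem _ (Subgroup.mul_mem _ (Subgroup.mul_mem _ h1 ?_) (Subgroup.inv_mem _ h1)) ?_
  · exact (le_sup_right : ⁅L, P⁆ ≤ Y ⊔ ⁅L, P⁆) (commutator_mem_commutator hl hx)
  · exact (le_sup_left : Y ≤ Y ⊔ ⁅L, P⁆) (commutator_le_left_of_le hP (commutator_mem_commutator hy hx))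

theorem le_of_le_commutator_sup {P X Y : Subgroup G} (hP : IsPGroup p P) (hXP : X ≤ P)
    (hY : P ≤ normalizer (Y : Set G)) (h : X ≤ ⁅X, P⁆ ⊔ Y) : X ≤ Y := by
  have hnil : Group.IsNilpotent ↥P := hP.isNilpotent
  obtain ⟨n, hn⟩ := Subgroup.nilpotent_iff_lowerCentralSeries.1 hnil
  have h1 : ∀ k, X ≤ Y ⊔ ((⊤ : Subgroup ↥P).lowerCentralSeries k).map P.subtype := by
    intro k
    induction k with
    | zero =>
      refine hXP.trans ?_
      have : P ≤ ((⊤ : Subgroup ↥P).lowerCentralSeries 0).map P.subtype := by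
        intro x hx
        exact ⟨⟨x, hx⟩, mem_top _, rfl⟩
      exact this.trans le_sup_right
    | succ k ih =>
      refine h.trans (sup_le ?_ le_sup_left)
      have h2 : ⁅X, P⁆ ≤ ⁅Y ⊔ ((⊤ : Subgroup ↥P).lowerCentralSeries k).map P.subtype, P⁆ :=
        commutator_mono ih le_rfl
      refine h2.trans ((comm_sup_le ((map_subtype_le _).trans hY) hY).trans ?_)
      refine sup_le le_sup_left (le_trans ?_ le_sup_right)
      have h3 : ((⊤ : Subgroup ↥P).lowerCentralSeries (k + 1)) =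
          ⁅(⊤ : Subgroup ↥P).lowerCentralSeries k, (⊤ : Subgroup ↥P)⁆ := rfl
      rw [h3, map_commutator, ← MonoidHom.range_eq_map, range_subtype]
  have h2 := h1 n
  rw [hn, Subgroup.map_bot, sup_bot_eq] at h2
  exact h2

/-- a `p`-element commuting with an irreducible action on the section `X / Y` acts trivially -/
theorem nc {e : G} {F X Y : Subgroup G} (hX : IsPGroup p X) (hYX : Y ≤ X) (hXY : X ≤ normalizer (Y : Set G))
    (he : IsPGroup p (zpowers e)) (heX : e ∈ normalizer (X : Set G)) (heY : e ∈ normalizer (Y : Set G))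
    (hFX : F ≤ normalizer (X : Set G)) (hFY : F ≤ normalizer (Y : Set G))
    (hirr : ∀ Z : Subgroup G, Y ≤ Z → Z ≤ X → F ≤ normalizer (Z : Set G) → Z = Y ∨ Z = X)
    (hc : ∀ f ∈ F, ∀ x ∈ X, ⁅x, ⁅f, e⁆⁆ ∈ Y) : ∀ x ∈ X, ⁅x, e⁆ ∈ Y := by
  -- the centralizer of `e` in `X / Y`
  let Z : Subgroup G :=
    { carrier := {x | x ∈ X ∧ ⁅x, e⁆ ∈ Y}
      one_mem' := ⟨X.one_mem, by simp⟩
      mul_mem' := by
        rintro a b ⟨ha, ha2⟩ ⟨hb, hb2⟩
        refine ⟨X.mul_mem ha hb, ?_⟩
        rw [commutatorElement_mul_left_eq_conj_mul]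
        exact Y.mul_mem (conj_mem_of_le_normalizer hXY ha hb2) ha2
      inv_mem' := by
        rintro a ⟨ha, ha2⟩
        refine ⟨X.inv_mem ha, ?_⟩
        have e1 : ⁅a⁻¹, e⁆ = a⁻¹ * ⁅a, e⁆⁻¹ * a := by
          simp only [commutatorElement_def]; group
        rw [e1]
        exact conj_mem_of_le_normalizer' hXY ha (Y.inv_mem ha2) }
  have hYZ : Y ≤ Z := by
    intro y hy
    refine ⟨hYX hy, ?_⟩
    rw [commutatorElement_def]
    have : y * e * y⁻¹ * e⁻¹ = y * (e * y⁻¹ * e⁻¹) := by group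
    rw [this]
    exact Y.mul_mem hy ((mem_normalizer_iff.mp heY _).mp (Y.inv_mem hy))
  have hZX : Z ≤ X := fun x hx => hx.1
  have hFZ : F ≤ normalizer (Z : Set G) := by
    intro f hf
    apply mem_normalizer_of_map_conj_le
    rintro _ ⟨x, ⟨hx, hx2⟩, rfl⟩
    refine ⟨conj_mem_of_le_normalizer hFX hf hx, ?_⟩
    change ⁅f * x * f⁻¹, e⁆ ∈ Y
    -- [fxf⁻¹, e] = f [x, f⁻¹ e f] f⁻¹ and f⁻¹ e f = [f⁻¹, e] e
    have e1 : ⁅f * x * f⁻¹, e⁆ = f * (⁅x, ⁅f⁻¹, e⁆⁆ * (⁅f⁻¹, e⁆ * ⁅x, e⁆ * ⁅f⁻¹, e⁆⁻¹)) * f⁻¹ := by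
      simp only [commutatorElement_def]; group
    rw [e1]
    apply conj_mem_of_le_normalizer hFY hf
    have h1 := hc f⁻¹ (F.inv_mem hf) x hx
    refine Y.mul_mem h1 ?_
    have h2 : ⁅f⁻¹, e⁆ ∈ normalizer (Y : Set G) := by
      rw [commutatorElement_def]
      exact mul_mem (mul_mem (mul_mem (hFY (F.inv_mem hf)) heY) (inv_mem (hFY (F.inv_mem hf)))) (inv_mem heY)
    exact (mem_normalizer_iff.mp h2 _).mp hx2
  rcases hirr Z hYZ hZX hFZ with h1 | h1
  · -- the fixed points are trivial: `X = Y`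
    have hen : zpowers e ≤ normalizer (X : Set G) := by rw [zpowers_le]; exact heX
    have heYn : zpowers e ≤ normalizer (Y : Set G) := by rw [zpowers_le]; exact heY
    set P := X ⊔ zpowers e with hPdef
    have hP : IsPGroup p P := isPGroup_sup hX he hen
    have hPY : P ≤ normalizer (Y : Set G) := sup_le hXY heYn
    have key : ∀ n : ℕ, ∀ W : Subgroup G, Nat.card W ≤ n → Y ≤ W → W ≤ X → P ≤ normalizer (W : Set G) → W ≤ Y := by
      intro n
      induction n with
      | zero =>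
        intro W hW
        have := Nat.card_pos (α := ↥W)
        omega
      | succ n ih =>
        intro W hW hYW hWX hPW
        set W1 := ⁅W, P⁆ ⊔ Y with hW1
        have hle : W1 ≤ W := sup_le (commutator_le_left_of_le hPW) hYW
        by_cases heq : W1 = W
        · exact le_of_le_commutator_sup hP (hWX.trans le_sup_left) hPY heq.ge
        · have hlt : W1 < W := lt_of_le_of_ne hle heq
          have hcard : Nat.card W1 < Nat.card W := by
            refine lt_of_le_of_ne (Subgroup.card_le_of_le hle) (fun hcc => heq ?_)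
            exact Subgroup.eq_of_le_of_card_ge hle hcc.ge
          have hn1 : P ≤ normalizer (W1 : Set G) :=
            le_normalizer_sup (le_normalizer_commutator hPW le_normalizer) hPY
          have h2 := ih W1 (by omega) le_sup_right (hle.trans hWX) hn1
          intro w hw
          rw [← h1]
          refine ⟨hWX hw, h2 ((le_sup_left : ⁅W, P⁆ ≤ W1) ?_)⟩
          exact commutator_mem_commutator hw ((le_sup_right : zpowers e ≤ P) (mem_zpowers e))
    have hXle : X ≤ Y := by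
      refine key _ X le_rfl hYX le_rfl (sup_le le_normalizer hen)
    intro x hx
    rw [← h1] at hXle
    exact (hXle hx).2
  · intro x hx
    rw [← h1] at hx
    exact hx.2

/-- a `p`-element of `E` acting nontrivially: consequences for pairs -/
theorem isPGroup_zpowers_of {e : G} {n : ℕ} (h : e ^ p ^ n = 1) : IsPGroup p (zpowers e) := by
  rintro ⟨x, hx⟩
  obtain ⟨k, rfl⟩ := mem_zpowers_iff.mp hx
  refine ⟨n, Subtype.ext ?_⟩
  change (e ^ k) ^ p ^ n = 1
  rw [← zpow_natCast, ← zpow_mul, mul_comm, zpow_mul, zpow_natCast, h, one_zpow]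

namespace SB

variable {E F : Subgroup G} (h : SB p E) (k : SB p F)

include h k in
/-- with `W_E = W_F` and `[E, F] ≤ O_p(G)`, a `p`-element of `E` centralizes `W_E` modulo `C(E)` -/
theorem W_eq_nc (hEF : ⁅E, F⁆ ≤ pCore p G) (hW : WE p E = WE p F) {e : G} (heE : e ∈ E)
    (he : IsPGroup p (zpowers e)) : ∀ x ∈ WE p E, ⁅x, e⁆ ∈ centralizer (E : Set G) := by
  have hFE : ⁅F, E⁆ ≤ pCore p G := by rw [commutator_comm]; exact hEF
  have h1 := norm_of h k hEF
  have h2 := norm_of k h hFE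
  set W := WE p E with hWdef
  have hFW : F ≤ normalizer (W : Set G) := WE_norm' h k hEF
  set Y := W ⊓ centralizer (F : Set G) with hY
  have hWV : W ≤ OZ p (pCore p G) := h.WE_le_V
  have hVc : OZ p (pCore p G) ≤ centralizer (OZ p (pCore p G) : Set G) := (elem_iff.mp (elem_OZ p _)).1
  have hWc : W ≤ centralizer (W : Set G) := (hWV.trans hVc).trans (centralizer_le hWV)
  have hFY : F ≤ normalizer (Y : Set G) := le_normalizer_inf hFW (le_normalizer_centralizer le_normalizer)
  have hEY : E ≤ normalizer (Y : Set G) := le_normalizer_inf h.WE_norm (le_normalizer_centralizer h1)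
  have hD := D_le h k hEF
  have key := nc (p := p) (e := e) (F := F) (X := W) (Y := Y) ((isPGroup_pCore p G).to_le (hWV.trans V_le)) inf_le_left
    (hWc.trans ((centralizer_le inf_le_left).trans (centralizer_le_normalizer _)))
    he (h.WE_norm heE) (hEY heE) hFW hFY ?_ ?_
  · -- `Y` is a proper `E`-invariant subgroup, hence centralized by `E`
    have hYE : Y ≤ centralizer (E : Set G) := by
      rcases h.WE_irr (X := Y) inf_le_left hEY with h3 | h3
      · exact h3
      · exfalso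
        apply k.WE_not
        rw [← hW]
        exact h3.ge.trans inf_le_right
    intro x hx
    exact hYE (key x hx)
  · intro Z hYZ hZW hFZ
    rcases k.WE_irr (X := Z) (hZW.trans hW.le) hFZ with h3 | h3
    · left; exact le_antisymm (le_inf hZW h3) hYZ
    · right; rw [h3, ← hW]
  · intro f hf x hx
    have h3 : ⁅f, e⁆ ∈ pCoreOf p E := hD.1 (by rw [commutator_comm]; exact commutator_mem_commutator hf heE)
    have h4 : ⁅x, ⁅f, e⁆⁆ = 1 := by
      rw [commutatorElement_eq_one_iff_mul_comm]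
      exact (mem_centralizer_iff.mp (h.Q_cent_WE h3) x hx)
    rw [h4]; exact Y.one_mem

/-- the extra data of an exceptional block -/
structure Exc (p : ℕ) (E : Subgroup G) : Prop where
  irr : ∀ X : Subgroup G, OZ p (pCoreOf p E) ≤ X → X ≤ pCoreOf p E → E ≤ normalizer (X : Set G) →
      X = OZ p (pCoreOf p E) ∨ X = pCoreOf p E
  nab : ⁅pCoreOf p E, pCoreOf p E⁆ ≠ ⊥
  com : ⁅pCoreOf p E, pCoreOf p E⁆ ≤ OZ p (pCoreOf p E)

theorem Exc.center (x : Exc p E) : pCoreOf p E ⊓ centralizer (pCoreOf p E : Set G) = OZ p (pCoreOf p E) := by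
  have hn : E ≤ normalizer ((pCoreOf p E ⊓ centralizer (pCoreOf p E : Set G) : Subgroup G) : Set G) :=
    le_normalizer_inf (le_normalizer_pCoreOf p E) (le_normalizer_centralizer (le_normalizer_pCoreOf p E))
  rcases x.irr _ (le_inf (OZ_le _) (OZ_le_centralizer _)) inf_le_left hn with h1 | h1
  · exact h1
  · exfalso
    apply x.nab
    rw [commutator_eq_bot_iff_le_centralizer]
    exact inf_eq_left.mp h1

include h k in
/-- both exceptional: the situation of a common natural section -/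
theorem exc_pair (hEF : ⁅E, F⁆ ≤ pCore p G) (x : Exc p E) (y : Exc p F)
    (hDE : ¬ ⁅E, F⁆ ≤ OZ p (pCoreOf p E)) (hDF : ¬ ⁅E, F⁆ ≤ OZ p (pCoreOf p F)) :
    ∃ D Z : Subgroup G, D ≤ pCoreOf p E ∧ D ≤ pCoreOf p F ∧ E ≤ normalizer (D : Set G) ∧ F ≤ normalizer (D : Set G) ∧
      Z = D ⊓ OZ p (pCoreOf p E) ∧ Z = D ⊓ OZ p (pCoreOf p F) ∧ D ⊔ OZ p (pCoreOf p E) = pCoreOf p E ∧
      D ⊔ OZ p (pCoreOf p F) = pCoreOf p F ∧ ⁅E, F⁆ ≤ D ∧ ⁅D, D⁆ ≤ Z := by
  have hFE : ⁅F, E⁆ ≤ pCore p G := by rw [commutator_comm]; exact hEF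
  have h1 := norm_of h k hEF
  have h2 := norm_of k h hFE
  obtain ⟨hD1, hD2⟩ := D_le h k hEF
  set D := ⁅E, F⁆ with hD
  have hDE' : E ≤ normalizer (D : Set G) := le_normalizer_commutator le_normalizer h1
  have hDF' : F ≤ normalizer (D : Set G) := le_normalizer_commutator h2 le_normalizer
  have hEO : E ≤ normalizer (OZ p (pCoreOf p E) : Set G) :=
    (le_normalizer_pCoreOf p E).trans (normalizer_le_normalizer_OZ p _)
  have hFO : F ≤ normalizer (OZ p (pCoreOf p F) : Set G) :=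
    (le_normalizer_pCoreOf p F).trans (normalizer_le_normalizer_OZ p _)
  have e1 : D ⊔ OZ p (pCoreOf p E) = pCoreOf p E := by
    rcases x.irr (D ⊔ OZ p (pCoreOf p E)) le_sup_right (sup_le hD1 (OZ_le _)) (le_normalizer_sup hDE' hEO) with h3 | h3
    · exact absurd (le_sup_left.trans h3.le) hDE
    · exact h3
  have e2 : D ⊔ OZ p (pCoreOf p F) = pCoreOf p F := by
    rcases y.irr (D ⊔ OZ p (pCoreOf p F)) le_sup_right (sup_le hD2 (OZ_le _)) (le_normalizer_sup hDF' hFO) with h3 | h3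
    · exact absurd (le_sup_left.trans h3.le) hDF
    · exact h3
  -- `D ∩ Ω_E = Z(D)`
  have hz : ∀ {K : Subgroup G} (z : Exc p K), D ≤ pCoreOf p K → D ⊔ OZ p (pCoreOf p K) = pCoreOf p K →
      D ⊓ OZ p (pCoreOf p K) = D ⊓ centralizer (D : Set G) := by
    intro K z hDK e
    apply le_antisymm
    · exact inf_le_inf_left _ ((OZ_le_centralizer _).trans (centralizer_le hDK))
    · refine le_inf inf_le_left ?_
      rw [← z.center]
      refine le_inf (inf_le_left.trans hDK) ?_
      rw [← e, Subgroup.le_centralizer_iff]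
      refine sup_le ?_ ?_
      · rw [← Subgroup.le_centralizer_iff]; exact inf_le_right
      · rw [← Subgroup.le_centralizer_iff]
        exact (inf_le_left.trans hDK).trans (le_centralizer_OZ _)
  have z1 := hz x hD1 e1
  have z2 := hz y hD2 e2
  refine ⟨D, D ⊓ centralizer (D : Set G), hD1, hD2, hDE', hDF', z1.symm, z2.symm, e1, e2, le_rfl, ?_⟩
  rw [← z1]
  exact le_inf (Subgroup.commutator_le_self D) ((commutator_mono hD1 hD1).trans x.com)

/-- irreducibility on the common section -/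
theorem sec_irr {K D Z : Subgroup G} (y : Exc p K) (hD : D ≤ pCoreOf p K) (hZ : Z = D ⊓ OZ p (pCoreOf p K))
    (e : D ⊔ OZ p (pCoreOf p K) = pCoreOf p K) : ∀ W : Subgroup G, Z ≤ W → W ≤ D → K ≤ normalizer (W : Set G) →
      W = Z ∨ W = D := by
  intro W hZW hWD hKW
  have hKO : K ≤ normalizer (OZ p (pCoreOf p K) : Set G) :=
    (le_normalizer_pCoreOf p K).trans (normalizer_le_normalizer_OZ p _)
  rcases y.irr (W ⊔ OZ p (pCoreOf p K)) le_sup_right (sup_le (hWD.trans hD) (OZ_le _)) (le_normalizer_sup hKW hKO)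
    with h3 | h3
  · left
    refine le_antisymm ?_ hZW
    rw [hZ]
    exact le_inf hWD (le_sup_left.trans h3.le)
  · right
    refine le_antisymm hWD ?_
    intro d hd
    have h4 : d ∈ W ⊔ OZ p (pCoreOf p K) := by rw [h3]; exact hD hd
    have h5 : OZ p (pCoreOf p K) ≤ normalizer (W : Set G) := by
      refine le_trans ?_ (centralizer_le_normalizer _)
      exact (OZ_le_centralizer _).trans (centralizer_le (hWD.trans hD))
    obtain ⟨w, hw, o, ho, rfl⟩ := exists_mul_of_mem_sup_of_le h5 h4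
    have h6 : o ∈ D := by
      have := D.mul_mem (D.inv_mem (hWD hw)) hd
      simpa using this
    have h7 : o ∈ Z := by rw [hZ]; exact ⟨h6, ho⟩
    exact W.mul_mem hw (hZW h7)

include h k in
/-- both exceptional: a `p`-element of `E` acts trivially on `Q_E / Ω_E` -/
theorem exc_nc (hEF : ⁅E, F⁆ ≤ pCore p G) (x : Exc p E) (y : Exc p F)
    (hDE : ¬ ⁅E, F⁆ ≤ OZ p (pCoreOf p E)) (hDF : ¬ ⁅E, F⁆ ≤ OZ p (pCoreOf p F)) {e : G} (heE : e ∈ E)
    (he : IsPGroup p (zpowers e)) : ∀ u ∈ pCoreOf p E, ⁅u, e⁆ ∈ OZ p (pCoreOf p E) := by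
  obtain ⟨D, Z, hD1, hD2, hDE', hDF', z1, z2, e1, e2, hD, hDD⟩ := exc_pair h k hEF x y hDE hDF
  have h1 := norm_of h k hEF
  have h2 := norm_of k h (by rw [commutator_comm]; exact hEF)
  have hEO : E ≤ normalizer (OZ p (pCoreOf p E) : Set G) :=
    (le_normalizer_pCoreOf p E).trans (normalizer_le_normalizer_OZ p _)
  have hFO : F ≤ normalizer (OZ p (pCoreOf p E) : Set G) :=
    (h2.trans (normalizer_le_normalizer_pCoreOf p _)).trans (normalizer_le_normalizer_OZ p _)
  have hEZ : E ≤ normalizer (Z : Set G) := by rw [z1]; exact le_normalizer_inf hDE' hEO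
  have hFZ : F ≤ normalizer (Z : Set G) := by rw [z1]; exact le_normalizer_inf hDF' hFO
  have hZD : Z ≤ D := by rw [z1]; exact inf_le_left
  have hDZ : D ≤ normalizer (Z : Set G) := (hD1.trans (pCoreOf_le E)).trans hEZ
  have key := nc (p := p) (e := e) (F := F) (X := D) (Y := Z) ((isPGroup_pCoreOf p E).to_le hD1) hZD hDZ he
    (hDE' heE) (hEZ heE) hDF' hFZ (sec_irr y hD2 z2 e2) ?_
  · intro u hu
    rw [← e1] at hu
    obtain ⟨d, hd, o, ho, rfl⟩ := exists_mul_of_mem_sup_of_le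
      (le_trans ((OZ_le _).trans (pCoreOf_le E)) hDE') hu
    rw [commutatorElement_mul_left_eq_conj_mul]
    have h5 := key d hd
    rw [z1] at h5
    refine Subgroup.mul_mem _ ?_ h5.2
    have h6 : ⁅o, e⁆ ∈ OZ p (pCoreOf p E) := commutator_le_left_of_le hEO (commutator_mem_commutator ho heE)
    exact conj_mem_of_le_normalizer (((hD1.trans (pCoreOf_le E)).trans hEO)) hd h6
  · intro f hf x hx
    apply hDD
    apply commutator_mem_commutator hx
    apply hD
    rw [commutator_comm]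
    exact commutator_mem_commutator hf heE

end SB

end Cfsg.Agent.Lib.BBPair
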