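import Cfsg.Agent.Lib.BBPair2
import Cfsg.Agent.Lib.SLQuasi

/-!
# Pairs of subnormal Baumann blocks (helper78): nonsolvable blocks
-/

set_option autoImplicit false
set_option linter.unusedSectionVars false

namespace Cfsg.Agent.Lib.BBPair

open Subgroup Cfsg Cfsg.Agent.Lib.LocBase Cfsg.Agent.Lib.PReduced Cfsg.Agent.Lib.BBlock
open scoped commutatorElement

universe u
variable {G : Type u} [Group G] [Finite G] {p : ℕ} [hp : Fact p.Prime]

theorem exists_pelt {E : Subgroup G} {H : Type*} [Group H] (ρ : ↥E →* H) {g : H} (hg : g ∈ ρ.range) (hgp : g ^ p = 1)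
    (hg1 : g ≠ 1) : ∃ e : ↥E, IsPGroup p (zpowers (e : G)) ∧ ρ e ≠ 1 := by
  obtain ⟨e0, rfl⟩ := hg
  have ho : orderOf (e0 : G) ≠ 0 := (orderOf_pos _).ne'
  obtain ⟨a, m, hm, ho2⟩ := Nat.exists_eq_pow_mul_and_not_dvd ho p hp.out.ne_one
  refine ⟨e0 ^ m, ?_, ?_⟩
  · apply isPGroup_zpowers_of (n := a)
    rw [Subgroup.coe_pow, ← pow_mul, mul_comm, ← ho2, pow_orderOf_eq_one]
  · intro hc
    rw [map_pow] at hc
    have h1 := orderOf_eq_prime hgp hg1
    have h2 := orderOf_dvd_of_pow_eq_one hc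
    rw [h1] at h2
    exact hm h2

theorem sl2_pelt {F : Type*} [Field F] [Fintype F] {n : ℕ} (hF : Fintype.card F = p ^ n) (h3 : 3 < Fintype.card F)
    {E U U₀ : Subgroup G}
    (h : ActsAsSL2OnSection F (commutator (Matrix.SpecialLinearGroup (Fin 2) F)) E U U₀) :
    ∃ e ∈ E, IsPGroup p (zpowers e) ∧ ∃ x ∈ U, ⁅x, e⁆ ∉ U₀ := by
  obtain ⟨h1, h2, ρ, ψ, hρ, hψ, hker, hact⟩ := h
  have htop : commutator (Matrix.SpecialLinearGroup (Fin 2) F) = ⊤ :=
    (SLQuasi.quasisimple_SL (F := F) (n := 2) le_rfl (fun _ => SLQuasi.exists_sq_ne_one h3)).1.1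
  have hn : n ≠ 0 := by
    rintro rfl
    rw [pow_zero] at hF
    omega
  have hchar : CharP F p := by
    obtain ⟨q, hq⟩ := CharP.exists F
    have hqp : q.Prime := CharP.char_is_prime F q
    obtain ⟨m, -, hm⟩ := FiniteField.card F q
    rw [hF] at hm
    have h4 : q ∣ p ^ n := by rw [hm]; exact dvd_pow_self q m.pos.ne'
    have h5 := (Nat.prime_dvd_prime_iff_eq hqp hp.out).mp (hqp.dvd_of_dvd_pow h4)
    rw [← h5]; exact hq
  have hup : ∀ k : ℕ, (up (1 : F)) ^ k = up (k : F) := by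
    intro k
    induction k with
    | zero =>
      rw [pow_zero]
      ext i j
      fin_cases i <;> fin_cases j <;> simp [up]
    | succ k ih =>
      rw [pow_succ, ih]
      apply Subtype.ext
      change (!![1, (k : F); 0, 1] : Matrix (Fin 2) (Fin 2) F) * !![1, 1; 0, 1] = !![1, ((k + 1 : ℕ) : F); 0, 1]
      rw [Matrix.mul_fin_two]
      simp [add_comm]
  have hupp : (up (1 : F)) ^ p = 1 := by
    rw [hup, CharP.cast_eq_zero]
    ext i j
    fin_cases i <;> fin_cases j <;> simp [up]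
  have hup1 : (up (1 : F)) ≠ 1 := by
    intro hc
    have := congrArg (fun M : Matrix.SpecialLinearGroup (Fin 2) F => (M : Matrix (Fin 2) (Fin 2) F) 0 1) hc
    simp [up] at this
  obtain ⟨e, he, hρe⟩ := exists_pelt (p := p) ρ (g := up (1 : F)) (by rw [hρ, htop]; exact mem_top _) hupp hup1
  refine ⟨e, e.2, he, ?_⟩
  by_contra hcon
  push Not at hcon
  apply hρe
  -- `ρ e` fixes every vector
  have hfix : ∀ v : Fin 2 → F, ((ρ e : Matrix.SpecialLinearGroup (Fin 2) F) : Matrix (Fin 2) (Fin 2) F).mulVec v = v := by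
    intro v
    obtain ⟨u, hu⟩ := hψ (Multiplicative.ofAdd v)
    obtain ⟨w, hw, hw2⟩ := hact e u
    have h5 := hcon u u.2
    have h6 : ((u * w⁻¹ : ↥U) : G) ∈ U₀ := by
      have e1 : ((u * w⁻¹ : ↥U) : G) = ⁅(u : G), (e : G)⁆ := by
        rw [Subgroup.coe_mul, Subgroup.coe_inv, hw, commutatorElement_def]; group
      rw [e1]; exact h5
    have h7 := (hker _).mpr h6
    rw [map_mul, map_inv, mul_inv_eq_one] at h7
    rw [← h7, hu] at hw2
    exact hw2.symm
  apply Subtype.ext
  ext i j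
  have := congrFun (hfix (Pi.single j 1)) i
  rw [Matrix.mulVec_single_one] at this
  simp only [Matrix.col_apply] at this
  rw [this]
  simp [Matrix.one_apply, Pi.single_apply]

theorem z2add : (1 : ZMod 2) + 1 = 0 := by decide

theorem z2ne : ¬ ((0 : ZMod 2) + 0 = 1 + 0) := by decide

theorem alt_pelt (h2 : p = 2) {m : ℕ} (hm : 2 ≤ m) {E U U₀ : Subgroup G}
    (h : ActsAsOddPermModuleOnSection (2 * m + 1) (alternatingGroup (Fin (2 * m + 1))) E U U₀) :
    ∃ e ∈ E, IsPGroup p (zpowers e) ∧ ∃ x ∈ U, ⁅x, e⁆ ∉ U₀ := by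
  obtain ⟨h1, h2', ρ, ψ, hρ, hsum, hψ, hker, hact⟩ := h
  -- a double transposition
  let i0 : Fin (2 * m + 1) := ⟨0, by omega⟩
  let i1 : Fin (2 * m + 1) := ⟨1, by omega⟩
  let i2 : Fin (2 * m + 1) := ⟨2, by omega⟩
  let i3 : Fin (2 * m + 1) := ⟨3, by omega⟩
  have h01 : i0 ≠ i1 := by simp [i0, i1]
  have h23 : i2 ≠ i3 := by simp [i2, i3]
  have h02 : i0 ≠ i2 := by simp [i0, i2]
  have h03 : i0 ≠ i3 := by simp [i0, i3]
  have h12 : i1 ≠ i2 := by simp [i1, i2]
  have h13 : i1 ≠ i3 := by simp [i1, i3]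
  set g : Equiv.Perm (Fin (2 * m + 1)) := Equiv.swap i0 i1 * Equiv.swap i2 i3 with hg
  have hgalt : g ∈ alternatingGroup (Fin (2 * m + 1)) := by
    rw [Equiv.Perm.mem_alternatingGroup, hg, map_mul, Equiv.Perm.sign_swap h01, Equiv.Perm.sign_swap h23]
    rfl
  have hdis : Equiv.Perm.Disjoint (Equiv.swap i0 i1) (Equiv.swap i2 i3) := by
    intro x
    by_cases hx0 : x = i0
    · right; rw [hx0]; exact Equiv.swap_apply_of_ne_of_ne h02 h03
    · by_cases hx1 : x = i1
      · right; rw [hx1]; exact Equiv.swap_apply_of_ne_of_ne h12 h13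
      · left; exact Equiv.swap_apply_of_ne_of_ne hx0 hx1
  have hg2 : g ^ 2 = 1 := by
    rw [hg, hdis.commute.mul_pow, pow_two, pow_two, Equiv.swap_mul_self, Equiv.swap_mul_self, one_mul]
  have hg1 : g ≠ 1 := by
    intro hc
    have := congrArg (fun f : Equiv.Perm (Fin (2 * m + 1)) => f i0) hc
    simp only [hg, Equiv.Perm.mul_apply, Equiv.Perm.one_apply] at this
    rw [Equiv.swap_apply_of_ne_of_ne h02 h03, Equiv.swap_apply_left] at this
    exact h01 this.symm
  subst h2
  obtain ⟨e, he, hρe⟩ := exists_pelt (p := 2) ρ (g := g) (by rw [hρ]; exact hgalt) hg2 hg1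
  refine ⟨e, e.2, he, ?_⟩
  by_contra hcon
  push Not at hcon
  apply hρe
  have hfix : ∀ v : Fin (2 * m + 1) → ZMod 2, ∑ i, v i = 0 → ∀ i, v ((ρ e)⁻¹ i) = v i := by
    intro v hv
    obtain ⟨u, hu⟩ := hψ v hv
    obtain ⟨w, hw, hw2⟩ := hact e u
    have h5 := hcon u u.2
    have h6 : ((u * w⁻¹ : ↥U) : G) ∈ U₀ := by
      have e1 : ((u * w⁻¹ : ↥U) : G) = ⁅(u : G), (e : G)⁆ := by
        rw [Subgroup.coe_mul, Subgroup.coe_inv, hw, commutatorElement_def]; group
      rw [e1]; exact h5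
    have h7 := (hker _).mpr h6
    rw [map_mul, map_inv, mul_inv_eq_one] at h7
    intro i
    have h8 := hw2 i
    rw [← h7, hu] at h8
    exact h8.symm
  -- a permutation fixing all even vectors is trivial
  have hinv : (ρ e)⁻¹ = 1 := by
    ext a
    by_contra hne
    have hne' : (ρ e)⁻¹ a ≠ a := fun hc => hne (by rw [hc]; rfl)
    obtain ⟨b, hb1, hb2⟩ : ∃ b : Fin (2 * m + 1), b ≠ a ∧ b ≠ (ρ e)⁻¹ a := by
      by_contra hcc
      push Not at hcc
      have hsub : (Finset.univ : Finset (Fin (2 * m + 1))) ⊆ {a, (ρ e)⁻¹ a} := by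
        intro b _
        by_cases hba : b = a
        · simp [hba]
        · simp [hcc b hba]
      have := Finset.card_le_card hsub
      rw [Finset.card_univ, Fintype.card_fin] at this
      have h9 := Finset.card_le_two (a := a) (b := (ρ e)⁻¹ a)
      omega
    have h10 := hfix (Pi.single a 1 + Pi.single b 1) (by
      simp only [Pi.add_apply, Finset.sum_add_distrib, Finset.sum_pi_single', Finset.mem_univ, if_true]
      exact z2add) a
    simp only [Pi.add_apply, Pi.single_eq_same, Pi.single_eq_of_ne hb1.symm, Pi.single_eq_of_ne hne',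
      Pi.single_eq_of_ne hb2.symm] at h10
    exact z2ne h10
  exact inv_eq_one.mp hinv

/-- nonsolvable blocks -/
structure NTy (p : ℕ) (E : Subgroup G) : Prop where
  quasi : IsQuasisimple (↥E ⧸ pCore p ↥E)
  n1 : ∃ e ∈ E, IsPGroup p (zpowers e) ∧ ∃ x ∈ OZ p (pCoreOf p E), ⁅x, e⁆ ∉ OZ p (pCoreOf p E) ⊓ centralizer (E : Set G)
  n2 : SB.Exc p E → ∃ e ∈ E, IsPGroup p (zpowers e) ∧ ∃ x ∈ pCoreOf p E, ⁅x, e⁆ ∉ OZ p (pCoreOf p E)

namespace SB

variable {E F : Subgroup G} (h : SB p E) (k : SB p F)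

section one
include h

theorem subgroupOf_eq : (pCore p G).subgroupOf E = pCore p ↥E := by
  rw [← pCoreOf_subgroupOf]
  apply le_antisymm
  · intro x hx
    exact h.inf_le ⟨x.2, hx⟩
  · intro x hx
    exact h.Q_le hx

/-- the image of `E` in `G / O_p(G)` -/
theorem map_equiv : Nonempty ((↥E ⧸ pCore p ↥E) ≃* ↥(E.map (QuotientGroup.mk' (pCore p G)))) := by
  set f : ↥E →* ↥(E.map (QuotientGroup.mk' (pCore p G))) := (QuotientGroup.mk' (pCore p G)).subgroupMap E with hf
  have hs : Function.Surjective f := (QuotientGroup.mk' (pCore p G)).subgroupMap_surjective E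
  have hk : f.ker = pCore p ↥E := by
    rw [← h.subgroupOf_eq]
    ext x
    rw [MonoidHom.mem_ker, mem_subgroupOf, ← QuotientGroup.eq_one_iff]
    constructor
    · intro h1
      exact congrArg Subtype.val h1
    · intro h1
      exact Subtype.ext h1
  exact ⟨(QuotientGroup.quotientMulEquivOfEq hk.symm).trans (QuotientGroup.quotientKerEquivOfSurjective f hs)⟩

theorem OZ_eq : WE p E ⊔ (OZ p (pCoreOf p E) ⊓ centralizer (E : Set G)) = OZ p (pCoreOf p E) := by
  obtain ⟨T, hT⟩ := h.blk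
  have hEO : E ≤ normalizer (OZ p (pCoreOf p E) : Set G) :=
    (le_normalizer_pCoreOf p E).trans (normalizer_le_normalizer_OZ p _)
  rcases hT.irr (WE p E ⊔ (OZ p (pCoreOf p E) ⊓ centralizer (E : Set G))) le_sup_right
    (sup_le h.WE_le_OZ inf_le_left) (le_normalizer_sup h.WE_norm
      (le_normalizer_inf hEO (le_normalizer_centralizer le_normalizer))) with h1 | h1
  · exfalso
    apply h.WE_not
    exact (le_sup_left.trans h1.le).trans inf_le_right
  · exact h1

end one

include h k in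
theorem eq_of_map (he : E.map (QuotientGroup.mk' (pCore p G)) = F.map (QuotientGroup.mk' (pCore p G))) : E = F := by
  have h1 : E ⊔ pCore p G = F ⊔ pCore p G := by
    have := congrArg (Subgroup.comap (QuotientGroup.mk' (pCore p G))) he
    rwa [comap_map_eq, comap_map_eq, QuotientGroup.ker_mk'] at this
  rw [← pRes_sup_eq h.res (isPGroup_pCore p G) h.O_norm, h1, pRes_sup_eq k.res (isPGroup_pCore p G) k.O_norm]

omit hp in
theorem comm_le_of_map (he : E.map (QuotientGroup.mk' (pCore p G)) ≤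
    centralizer (F.map (QuotientGroup.mk' (pCore p G)) : Set (G ⧸ pCore p G))) : ⁅E, F⁆ ≤ pCore p G := by
  rw [← commutator_eq_bot_iff_le_centralizer, ← map_commutator, Subgroup.map_eq_bot_iff, QuotientGroup.ker_mk'] at he
  exact he

include h k in
/-- the final case distinction -/
theorem final (hEF : ⁅E, F⁆ ≤ pCore p G) (hW : WE p E ≠ WE p F)
    (aE : pCoreOf p E = OZ p (pCoreOf p E) ∨ Exc p E) (aF : pCoreOf p F = OZ p (pCoreOf p F) ∨ Exc p F)
    (hx : Exc p E → Exc p F → ¬ ⁅E, F⁆ ≤ OZ p (pCoreOf p E) → ¬ ⁅E, F⁆ ≤ OZ p (pCoreOf p F) → False) : ⁅E, F⁆ = ⊥ := by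
  have hFE : ⁅F, E⁆ ≤ pCore p G := by rw [commutator_comm]; exact hEF
  obtain ⟨hD1, hD2⟩ := D_le h k hEF
  have c1 : ⁅E, F⁆ ≤ OZ p (pCoreOf p E) → ⁅E, F⁆ = ⊥ := comm_bot_of_le h k hEF hW
  have c2 : ⁅E, F⁆ ≤ OZ p (pCoreOf p F) → ⁅E, F⁆ = ⊥ := by
    intro h1
    rw [commutator_comm]
    exact comm_bot_of_le k h hFE hW.symm (by rw [commutator_comm]; exact h1)
  rcases aE with aE | aE
  · exact c1 (by rw [← aE]; exact hD1)
  · rcases aF with aF | aF
    · exact c2 (by rw [← aF]; exact hD2)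
    · by_cases h3 : ⁅E, F⁆ ≤ OZ p (pCoreOf p E)
      · exact c1 h3
      · by_cases h4 : ⁅E, F⁆ ≤ OZ p (pCoreOf p F)
        · exact c2 h4
        · exact (hx aE aF h3 h4).elim

include h k in
theorem nType (n : NTy p E) (hF : NTy p F ∨ Group.IsSolvable (↥F ⧸ pCore p ↥F))
    (aE : pCoreOf p E = OZ p (pCoreOf p E) ∨ Exc p E) (aF : pCoreOf p F = OZ p (pCoreOf p F) ∨ Exc p F) :
    E = F ∨ ⁅E, F⁆ = ⊥ := by
  have hsE : (E.map (QuotientGroup.mk' (pCore p G))).IsSubnormal := by
    rw [← subn_top_iff]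
    have := h.sub.map (QuotientGroup.mk' (pCore p G))
    rwa [← MonoidHom.range_eq_map, MonoidHom.range_eq_top.mpr (QuotientGroup.mk'_surjective _)] at this
  have hsF : (F.map (QuotientGroup.mk' (pCore p G))).IsSubnormal := by
    rw [← subn_top_iff]
    have := k.sub.map (QuotientGroup.mk' (pCore p G))
    rwa [← MonoidHom.range_eq_map, MonoidHom.range_eq_top.mpr (QuotientGroup.mk'_surjective _)] at this
  have hcE : IsComponent (E.map (QuotientGroup.mk' (pCore p G))) :=
    ⟨hsE, Components.quasisimple_congr h.map_equiv.some n.quasi⟩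
  rcases Components.component_le_or_le_centralizer hcE hsF with h1 | h1
  · left
    rcases hF with hF | hF
    · have hcF : IsComponent (F.map (QuotientGroup.mk' (pCore p G))) :=
        ⟨hsF, Components.quasisimple_congr k.map_equiv.some hF.quasi⟩
      exact eq_of_map h k (Components.component_eq_of_le hcE hcF h1)
    · exfalso
      have hs : Group.IsSolvable ↥(F.map (QuotientGroup.mk' (pCore p G))) :=
        Group.isSolvable_of_surjective (f := k.map_equiv.some.toMonoidHom) k.map_equiv.some.surjective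
      exact Components.component_not_le_solvable hcE hs h1
  · right
    have hEF := comm_le_of_map h1
    refine final h k hEF ?_ aE aF ?_
    · intro hW
      obtain ⟨e, heE, he, x, hx, hxe⟩ := n.n1
      apply hxe
      have h2 := W_eq_nc h k hEF hW heE he
      have hEO : E ≤ normalizer (OZ p (pCoreOf p E) : Set G) :=
        (le_normalizer_pCoreOf p E).trans (normalizer_le_normalizer_OZ p _)
      refine ⟨commutator_le_left_of_le hEO (commutator_mem_commutator hx heE), ?_⟩
      rw [← h.OZ_eq] at hx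
      have hn : OZ p (pCoreOf p E) ⊓ centralizer (E : Set G) ≤ normalizer (WE p E : Set G) :=
        (inf_le_left.trans ((OZ_le _).trans (pCoreOf_le E))).trans h.WE_norm
      obtain ⟨w, hw, c, hc, rfl⟩ := exists_mul_of_mem_sup_of_le hn hx
      rw [commutatorElement_mul_left_eq_conj_mul]
      have h3 : ⁅c, e⁆ = 1 := by
        rw [commutatorElement_eq_one_iff_mul_comm]
        exact (mem_centralizer_iff.mp hc.2 e heE).symm
      rw [h3, mul_one, mul_inv_cancel, one_mul]
      exact h2 w hw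
    · intro xE xF hDE hDF
      obtain ⟨e, heE, he, x, hx, hxe⟩ := n.n2 xE
      exact hxe (exc_nc h k hEF xE xF hDE hDF heE he x hx)

end SB

end Cfsg.Agent.Lib.BBPair
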