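import Cfsg.Agent.Lib.BBPair3
import Cfsg.Agent.Lib.CoprimeAction2

/-!
# Pairs of subnormal Baumann blocks (helper78): solvable blocks, the commuting theorem
-/

set_option autoImplicit false
set_option linter.unusedSectionVars false

namespace Cfsg.Agent.Lib.BBPair

open Subgroup Cfsg Cfsg.Agent.Lib.LocBase Cfsg.Agent.Lib.PReduced Cfsg.Agent.Lib.BBlock
open scoped commutatorElement

universe u
variable {G : Type u} [Group G] [Finite G] {p : ℕ} [hp : Fact p.Prime] {r : ℕ} [hr : Fact r.Prime]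

/-- a proper subgroup of a `p`-group lies in a proper normal subgroup -/
theorem exists_normal_lt {A R : Subgroup G} (hR : IsPGroup r R) (hA : A ≤ R) (hne : A ≠ R) :
    ∃ M : Subgroup G, A ≤ M ∧ M < R ∧ R ≤ normalizer (M : Set G) := by
  have h := LocMore.subn_of_isPGroup hR hA
  induction h with
  | refl => exact absurd rfl hne
  | @step A B R h1 h2 h3 ih =>
    by_cases hB : B = R
    · subst hB
      exact ⟨A, le_rfl, lt_of_le_of_ne hA hne, h2⟩
    · obtain ⟨M, hM1, hM2, hM3⟩ := ih hR h3.le hB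
      exact ⟨M, h1.trans hM1, hM2, hM3⟩

theorem comm_V' {S E : Subgroup G} (h : SB p E) (gen : pCoreOf p E ⊔ (S ⊓ E) = E) :
    ⁅OZ p (pCore p G), S ⊓ E⁆ = WE p E := by
  apply le_antisymm
  · rw [← h.comm_V]
    exact commutator_mono le_rfl inf_le_right
  · rw [← h.comm_V]
    rw [commutator_le]
    intro v hv e he
    have he' := he
    rw [← gen] at he'
    obtain ⟨q, hq, a, ha, rfl⟩ := exists_mul_of_mem_sup_of_le
      (inf_le_right.trans (le_normalizer_pCoreOf p E)) he'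
    have hqv : ⁅v, q⁆ = 1 := by
      rw [commutatorElement_eq_one_iff_mul_comm]
      exact mem_centralizer_iff.mp (O_cent (h.Q_le hq)) v hv
    have hva : ⁅v, a⁆ ∈ OZ p (pCore p G) := commutator_le_left_of_le (V_norm E)
      (commutator_mem_commutator hv ha.2)
    have e1 : ⁅v, q * a⁆ = ⁅v, q⁆ * (q * ⁅v, a⁆ * q⁻¹) := by
      simp only [commutatorElement_def]; group
    have e2 : q * ⁅v, a⁆ * q⁻¹ = ⁅v, a⁆ := by
      rw [← mem_centralizer_iff.mp (O_cent (h.Q_le hq)) _ hva]; group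
    rw [e1, hqv, one_mul, e2]
    exact commutator_mem_commutator hv ha

theorem cop {S : Subgroup G} (hpr : p ≠ r) (hS : IsPGroup r S) {A P : Subgroup G} (hA : A ≤ S) (hP : IsPGroup p P) :
    (Nat.card A).Coprime (Nat.card P) := by
  obtain ⟨i, hi⟩ := (IsPGroup.iff_card).mp (hS.to_le hA)
  obtain ⟨j, hj⟩ := (IsPGroup.iff_card).mp hP
  rw [hi, hj]
  exact Nat.Coprime.pow _ _ ((Nat.coprime_primes hr.out hp.out).mpr hpr.symm)

theorem Vcomm : OZ p (pCore p G) ≤ centralizer (OZ p (pCore p G) : Set G) := (elem_iff.mp (elem_OZ p _)).1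

theorem V_mulComm : IsMulCommutative ↥(OZ p (pCore p G)) := by
  rw [isMulCommutative_iff_of_setLike]
  intro a ha b hb
  exact mem_centralizer_iff.mp (Vcomm hb) a ha

/-- `C_{W_E}(A) = 1` -/
theorem W_inf' {S E : Subgroup G} (hpr : p ≠ r) (hS : IsPGroup r S) (h : SB p E) (gen : pCoreOf p E ⊔ (S ⊓ E) = E)
    {w : G} (hw : w ∈ WE p E) (hwc : w ∈ centralizer ((S ⊓ E : Subgroup G) : Set G)) : w = 1 := by
  have hV : IsMulCommutative ↥(OZ p (pCore p G)) := V_mulComm
  have h1 := CoprimeAction2.inf_commutator_eq_bot_of_abelian (A := S ⊓ E) (V := OZ p (pCore p G)) (V_norm _)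
    (cop hpr hS inf_le_left ((isPGroup_pCore p G).to_le V_le))
  rw [comm_V' h gen] at h1
  have h2 : w ∈ (OZ p (pCore p G) ⊓ centralizer ((S ⊓ E : Subgroup G) : Set G)) ⊓ WE p E :=
    ⟨⟨h.WE_le_V hw, hwc⟩, hw⟩
  rw [h1] at h2
  exact mem_bot.mp h2

/-- a solvable block relative to a Sylow `r`-subgroup `S` -/
structure ST (p r : ℕ) (S : Subgroup G) (m c : ℕ) (E : Subgroup G) : Prop where
  sb : SB p E
  gen : pCoreOf p E ⊔ (S ⊓ E) = E
  cardA : Nat.card ↥(S ⊓ E) = m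
  cardW : Nat.card ↥(WE p E) = c
  fpf : ∀ a ∈ S ⊓ E, a ≠ 1 → ∀ v ∈ OZ p (pCore p G), a * v = v * a → v ∈ centralizer ((S ⊓ E : Subgroup G) : Set G)

/-- `S ∩ E` is a complement to `O_p(E)` -/
theorem gen_of {S E : Subgroup G} (hpr : p ≠ r) (hS : IsSyl r S ⊤) (h : SB p E) {i : ℕ}
    (hcard : Nat.card E = r ^ i * Nat.card ↥(pCoreOf p E)) :
    Nat.card ↥(S ⊓ E) = r ^ i ∧ pCoreOf p E ⊔ (S ⊓ E) = E := by
  have h1 := h.sub.isSyl hS
  have hSp : IsPGroup r S := hS.pgroup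
  have hQ := isPGroup_pCoreOf p E
  have hcop := cop hpr hSp (inf_le_left : S ⊓ E ≤ S) hQ
  have h2 : Nat.card ↥(S ⊓ E) ∣ r ^ i := by
    have h3 : Nat.card ↥(S ⊓ E) ∣ Nat.card E := Subgroup.card_dvd_of_le inf_le_right
    rw [hcard] at h3
    exact hcop.dvd_of_dvd_mul_right h3
  have h3 : Nat.card ↥(S ⊓ E) = r ^ i := by
    refine Nat.dvd_antisymm h2 ?_
    have h4 : (r ^ i) ∣ Nat.card E := by rw [hcard]; exact dvd_mul_right _ _
    have h5 : Nat.card E = Nat.card ↥(S ⊓ E) * (S ⊓ E).relIndex E := by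
      have h7 := Subgroup.relIndex_mul_relIndex ⊥ (S ⊓ E) E bot_le inf_le_right
      rw [Subgroup.relIndex_bot_left, Subgroup.relIndex_bot_left] at h7
      exact h7.symm
    rw [h5] at h4
    have h6 : Nat.Coprime (r ^ i) ((S ⊓ E).relIndex E) :=
      Nat.Coprime.pow_left i ((Nat.Prime.coprime_iff_not_dvd hr.out).mpr h1.ndvd)
    exact h6.dvd_of_dvd_mul_right h4
  refine ⟨h3, ?_⟩
  have hle : pCoreOf p E ⊔ (S ⊓ E) ≤ E := sup_le (pCoreOf_le E) inf_le_right
  refine Subgroup.eq_of_le_of_card_ge hle ?_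
  have h6 : Nat.card ↥(pCoreOf p E) * Nat.card ↥(S ⊓ E) ∣ Nat.card ↥(pCoreOf p E ⊔ (S ⊓ E) : Subgroup G) :=
    hcop.symm.mul_dvd_of_dvd_of_dvd (Subgroup.card_dvd_of_le le_sup_left) (Subgroup.card_dvd_of_le le_sup_right)
  rw [hcard, ← h3, mul_comm]
  exact Nat.le_of_dvd Nat.card_pos h6

theorem card_sup_of_inf {X Y : Subgroup G} (hn : Y ≤ normalizer (X : Set G)) (hXY : ∀ x ∈ X, x ∈ Y → x = 1) :
    Nat.card ↥(X ⊔ Y : Subgroup G) = Nat.card X * Nat.card Y := by
  rw [← Nat.card_prod]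
  symm
  apply Nat.card_congr
  refine Equiv.ofBijective (fun q : ↥X × ↥Y => (⟨(q.1 : G) * q.2, mul_mem ((le_sup_left : X ≤ X ⊔ Y) q.1.2)
    ((le_sup_right : Y ≤ X ⊔ Y) q.2.2)⟩ : ↥(X ⊔ Y))) ⟨?_, ?_⟩
  · rintro ⟨x, y⟩ ⟨x', y'⟩ hxy
    have h1 : (x : G) * y = x' * y' := congrArg Subtype.val hxy
    have h2 : (x' : G)⁻¹ * x = y' * (y : G)⁻¹ := by
      rw [inv_mul_eq_iff_eq_mul, ← mul_assoc, ← h1, mul_inv_cancel_right]
    have h3 := hXY _ (mul_mem (inv_mem x'.2) x.2) (by rw [h2]; exact mul_mem y'.2 (inv_mem y.2))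
    have h4 : (x : G) = x' := (inv_mul_eq_one.mp h3).symm
    have h5 : (y : G) = y' := by rw [h4] at h1; exact mul_left_cancel h1
    exact Prod.ext (Subtype.ext h4) (Subtype.ext h5)
  · rintro ⟨z, hz⟩
    obtain ⟨x, hx, y, hy, rfl⟩ := exists_mul_of_mem_sup_of_le hn hz
    exact ⟨(⟨x, hx⟩, ⟨y, hy⟩), rfl⟩

/-- `W_E ∩ C(E) = 1` -/
theorem W_Z {S E : Subgroup G} (hpr : p ≠ r) (hS : IsPGroup r S) (h : SB p E) (gen : pCoreOf p E ⊔ (S ⊓ E) = E)
    {w : G} (hw : w ∈ WE p E) (hwc : w ∈ centralizer (E : Set G)) : w = 1 :=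
  W_inf' hpr hS h gen hw (centralizer_le inf_le_right hwc)

theorem cardW_of {S E : Subgroup G} (hpr : p ≠ r) (hS : IsPGroup r S) (h : SB p E) (gen : pCoreOf p E ⊔ (S ⊓ E) = E)
    {c : ℕ} (hc : Nat.card ↥(OZ p (pCoreOf p E)) = c * Nat.card ↥(OZ p (pCoreOf p E) ⊓ centralizer (E : Set G))) :
    Nat.card ↥(WE p E) = c := by
  have hn : OZ p (pCoreOf p E) ⊓ centralizer (E : Set G) ≤ normalizer (WE p E : Set G) :=
    (inf_le_left.trans ((OZ_le _).trans (pCoreOf_le E))).trans h.WE_norm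
  have h1 := card_sup_of_inf hn (fun w hw hw2 => W_Z hpr hS h gen hw hw2.2)
  rw [h.OZ_eq, hc] at h1
  exact (Nat.eq_of_mul_eq_mul_right Nat.card_pos h1).symm

/-- elements of `V` commuting with a fixed-point-free element of `A` -/
theorem fpf_of {S E : Subgroup G} (hpr : p ≠ r) (hS : IsPGroup r S) (h : SB p E) (gen : pCoreOf p E ⊔ (S ⊓ E) = E)
    {a : G} (ha : a ∈ S ⊓ E) (hfp : ∀ w ∈ WE p E, a * w = w * a → w = 1) :
    ∀ v ∈ OZ p (pCore p G), a * v = v * a → v ∈ centralizer ((S ⊓ E : Subgroup G) : Set G) := by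
  intro v hv hc
  have hV : IsMulCommutative ↥(OZ p (pCore p G)) := V_mulComm
  have h1 := CoprimeAction2.sup_commutator_eq_of_abelian (A := S ⊓ E) (V := OZ p (pCore p G)) (V_norm _)
    (cop hpr hS inf_le_left ((isPGroup_pCore p G).to_le V_le))
  rw [comm_V' h gen] at h1
  have hn : WE p E ≤ normalizer ((OZ p (pCore p G) ⊓ centralizer ((S ⊓ E : Subgroup G) : Set G) : Subgroup G) : Set G) := by
    refine le_trans ?_ (centralizer_le_normalizer _)
    exact (h.WE_le_V.trans Vcomm).trans (centralizer_le inf_le_left)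
  rw [← h1] at hv
  obtain ⟨c, hc2, w, hw, rfl⟩ := exists_mul_of_mem_sup_of_le hn hv
  have h2 : a * c = c * a := mem_centralizer_iff.mp hc2.2 a ha
  have h3 : a * w = w * a := by
    have h4 : c * (a * w) = c * (w * a) := by
      rw [← mul_assoc, ← h2, mul_assoc, hc, mul_assoc]
    exact mul_left_cancel h4
  rw [hfp w hw h3, mul_one]
  exact hc2.2

namespace ST

variable {S E F : Subgroup G} {m c : ℕ}

theorem comm_V (h : ST p r S m c E) : ⁅OZ p (pCore p G), S ⊓ E⁆ = WE p E := comm_V' h.sb h.gen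

/-- `C_{W_E}(A) = 1` -/
theorem W_inf (hpr : p ≠ r) (hS : IsPGroup r S) (h : ST p r S m c E) {w : G} (hw : w ∈ WE p E)
    (hwc : w ∈ centralizer ((S ⊓ E : Subgroup G) : Set G)) : w = 1 := W_inf' hpr hS h.sb h.gen hw hwc

/-- the map `w ↦ [w, t]` on a subgroup of `V` -/
theorem comm_hom_card {W : Subgroup G} (hWV : W ≤ OZ p (pCore p G)) {t : G}
    (hinj : ∀ w ∈ W, t * w = w * t → w = 1) {Y : Subgroup G} (hY : ∀ w ∈ W, ⁅w, t⁆ ∈ Y)
    (hcard : Nat.card Y ≤ Nat.card W) : ∀ y ∈ Y, ∃ w ∈ W, ⁅w, t⁆ = y := by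
  let f : ↥W → ↥Y := fun w => ⟨⁅(w : G), t⁆, hY w w.2⟩
  have hf : Function.Injective f := by
    intro a b hab
    have h1 : ⁅(a : G), t⁆ = ⁅(b : G), t⁆ := congrArg Subtype.val hab
    have hVa : ∀ x y : G, x ∈ OZ p (pCore p G) → y ∈ OZ p (pCore p G) → x * y = y * x := fun x y hx hy =>
      mem_centralizer_iff.mp (Vcomm hy) x hx
    have ha := hWV a.2
    have hb := hWV b.2
    have htb : t * (b : G)⁻¹ * t⁻¹ ∈ OZ p (pCore p G) := by
      have := (mem_normalizer_iff.mp ((V_norm (p := p) ⊤) (mem_top t)) ((b : G)⁻¹)).mp (inv_mem hb)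
      exact this
    have hta : t * (a : G)⁻¹ * t⁻¹ ∈ OZ p (pCore p G) := by
      have := (mem_normalizer_iff.mp ((V_norm (p := p) ⊤) (mem_top t)) ((a : G)⁻¹)).mp (inv_mem ha)
      exact this
    -- t commutes with b⁻¹ a
    have h2 : (b : G)⁻¹ * a = t * ((b : G)⁻¹ * a) * t⁻¹ := by
      have e1 : (a : G) * (t * (a : G)⁻¹ * t⁻¹) = b * (t * (b : G)⁻¹ * t⁻¹) := by
        simp only [commutatorElement_def] at h1
        calc (a : G) * (t * (a : G)⁻¹ * t⁻¹) = a * t * (a : G)⁻¹ * t⁻¹ := by group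
          _ = _ := h1
          _ = b * (t * (b : G)⁻¹ * t⁻¹) := by group
      have e2 : (b : G)⁻¹ * a = (t * (b : G)⁻¹ * t⁻¹) * (t * (a : G)⁻¹ * t⁻¹)⁻¹ := by
        rw [eq_mul_inv_iff_mul_eq, mul_assoc, e1]; group
      refine e2.trans ?_
      group
    have h3 : t * ((b : G)⁻¹ * a) = ((b : G)⁻¹ * a) * t := by
      conv_rhs => rw [h2]
      group
    have h4 := hinj _ (W.mul_mem (W.inv_mem b.2) a.2) h3
    apply Subtype.ext
    rw [inv_mul_eq_one] at h4
    exact h4.symm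
  have hs : Function.Surjective f := by
    have _ := Fintype.ofFinite ↥W
    have _ := Fintype.ofFinite ↥Y
    have hle := Nat.card_le_card_of_injective f hf
    have heq : Nat.card ↥W = Nat.card ↥Y := le_antisymm hle hcard
    exact ((Fintype.bijective_iff_injective_and_card f).mpr ⟨hf, by
      rw [← Nat.card_eq_fintype_card, ← Nat.card_eq_fintype_card]; exact heq⟩).2
  intro y hy
  obtain ⟨w, hw⟩ := hs ⟨y, hy⟩
  exact ⟨w, w.2, congrArg Subtype.val hw⟩

/-- commuting Sylow subgroups: the second module is centralized -/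
theorem cent_of_comm (hpr : p ≠ r) (hS : IsPGroup r S) (h : ST p r S m c E) (k : ST p r S m c F)
    (hc : ⁅S ⊓ E, S ⊓ F⁆ = ⊥) (hne : WE p E ≠ WE p F) :
    S ⊓ E ≤ centralizer (WE p F : Set G) ∧ ∀ w ∈ WE p E, w ∈ WE p F → w = 1 := by
  have hAB : S ⊓ E ≤ normalizer ((S ⊓ F : Subgroup G) : Set G) :=
    (commutator_eq_bot_iff_le_centralizer.mp hc).trans (centralizer_le_normalizer _)
  have hAW : S ⊓ E ≤ normalizer (WE p F : Set G) := by
    rw [← k.comm_V]
    exact le_normalizer_commutator (V_norm _) hAB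
  set X := ⁅WE p F, S ⊓ E⁆ with hX
  have hX1 : X ≤ WE p F := commutator_le_left_of_le hAW
  have hX2 : X ≤ WE p E := by rw [hX, ← h.comm_V]; exact commutator_mono k.sb.WE_le_V le_rfl
  have hXE : E ≤ normalizer (X : Set G) := by
    conv_lhs => rw [← h.gen]
    refine sup_le ?_ (normalizer_commutator_ge_right _ _)
    refine le_trans ?_ (centralizer_le_normalizer _)
    exact (h.sb.Q_le.trans O_cent).trans (centralizer_le (hX2.trans h.sb.WE_le_V))
  have hXb : X = ⊥ := by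
    rcases h.sb.WE_irr hX2 hXE with h1 | h1
    · rw [eq_bot_iff]
      intro x hx
      exact mem_bot.mpr (W_inf hpr hS h (hX2 hx) (centralizer_le inf_le_right (h1 hx)))
    · exfalso; apply hne
      have h2 : WE p E ≤ WE p F := h1.symm.le.trans hX1
      exact Subgroup.eq_of_le_of_card_ge h2 (by rw [h.cardW, k.cardW])
  have h3 : WE p F ≤ centralizer ((S ⊓ E : Subgroup G) : Set G) :=
    commutator_eq_bot_iff_le_centralizer.mp hXb
  refine ⟨Subgroup.le_centralizer_iff.mp h3, fun w hw hw2 => W_inf hpr hS h hw (h3 hw2)⟩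

end ST

theorem WE_map_conj (E : Subgroup G) (g : G) :
    WE p (E.map (MulAut.conj g).toMonoidHom) = (WE p E).map (MulAut.conj g).toMonoidHom := by
  unfold WE
  rw [pCoreOf_map_conj, ← OZ_map_conj, map_commutator]

theorem inf_map_conj {S E : Subgroup G} {s : G} (hs : s ∈ S) :
    S ⊓ E.map (MulAut.conj s).toMonoidHom = (S ⊓ E).map (MulAut.conj s).toMonoidHom := by
  rw [Subgroup.map_inf _ _ _ (MulAut.conj s).injective, map_conj_eq_of_mem (le_normalizer hs)]

theorem exists_third {B : Subgroup G} (hB : 3 ≤ Nat.card B) (x y : G) : ∃ b ∈ B, b ≠ x ∧ b ≠ y := by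
  by_contra hcon
  push Not at hcon
  have h1 : (B : Set G) ⊆ {x, y} := by
    intro b hb
    by_cases h : b = x
    · simp [h]
    · simp [hcon b hb h]
  have h2 := Set.ncard_le_ncard h1 (Set.toFinite _)
  have h3 : ({x, y} : Set G).ncard ≤ 2 := by
    have := Set.ncard_insert_le x {y}
    rwa [Set.ncard_singleton] at this
  have h4 : (B : Set G).ncard = Nat.card B := rfl
  omega

/-- a class of solvable blocks, closed under conjugation by `S`, where `W_E` determines `E` -/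
structure Cls (p r : ℕ) (S : Subgroup G) (m c : ℕ) (C : Subgroup G → Prop) : Prop where
  st : ∀ E, C E → ST p r S m c E
  conj : ∀ E, C E → ∀ s ∈ S, C (E.map (MulAut.conj s).toMonoidHom)
  inj : ∀ E F, C E → C F → WE p E = WE p F → E = F

namespace Cls

variable {S : Subgroup G} {m c : ℕ} {C : Subgroup G → Prop}

theorem step (hC : Cls p r S m c C) (hpr : p ≠ r) (hS : IsPGroup r S) (hm : 3 ≤ m) {n : ℕ}
    (ih : ∀ E F : Subgroup G, C E → C F → Nat.card ↥((S ⊓ E) ⊔ (S ⊓ F) : Subgroup G) ≤ n →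
      WE p E = WE p F ∨ ⁅S ⊓ E, S ⊓ F⁆ = ⊥) {E F : Subgroup G} (hE : C E) (hF : C F)
    (hcard : Nat.card ↥((S ⊓ E) ⊔ (S ⊓ F) : Subgroup G) ≤ n + 1) (hW : WE p E ≠ WE p F) :
    S ⊓ F ≤ normalizer (WE p E : Set G) := by
  have h := hC.st E hE
  have k := hC.st F hF
  have hRp : IsPGroup r ↥((S ⊓ E) ⊔ (S ⊓ F) : Subgroup G) := hS.to_le (sup_le inf_le_left inf_le_left)
  have hAR : S ⊓ E ≠ (S ⊓ E) ⊔ (S ⊓ F) := by
    intro he
    have h1 : S ⊓ F ≤ S ⊓ E := le_sup_right.trans he.ge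
    have h2 : S ⊓ F = S ⊓ E := Subgroup.eq_of_le_of_card_ge h1 (by rw [h.cardA, k.cardA])
    apply hW
    rw [← h.comm_V, ← k.comm_V, h2]
  obtain ⟨M, hM1, hM2, hM3⟩ := exists_normal_lt hRp le_sup_left hAR
  have hMc : Nat.card M ≤ n := by
    have h1 : Nat.card M ≤ Nat.card ↥((S ⊓ E) ⊔ (S ⊓ F) : Subgroup G) := Subgroup.card_le_of_le hM2.le
    have h2 : Nat.card M ≠ Nat.card ↥((S ⊓ E) ⊔ (S ⊓ F) : Subgroup G) := by
      intro he
      exact hM2.ne (Subgroup.eq_of_le_of_card_ge hM2.le he.ge)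
    omega
  have hconj : ∀ b ∈ S ⊓ F, b ∉ normalizer (WE p E : Set G) →
      S ⊓ E ≤ centralizer (WE p (E.map (MulAut.conj b).toMonoidHom) : Set G) ∧
      ∀ w ∈ WE p E, w ∈ WE p (E.map (MulAut.conj b).toMonoidHom) → w = 1 := by
    intro b hb hbn
    have hEb := hC.conj E hE b hb.1
    have h1 : WE p E ≠ WE p (E.map (MulAut.conj b).toMonoidHom) := by
      intro he
      apply hbn
      rw [WE_map_conj] at he
      exact mem_normalizer_of_map_conj_eq he.symm
    have hinf := inf_map_conj (E := E) hb.1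
    have h2 : Nat.card ↥((S ⊓ E) ⊔ (S ⊓ E.map (MulAut.conj b).toMonoidHom) : Subgroup G) ≤ n := by
      refine (Subgroup.card_le_of_le (sup_le hM1 ?_)).trans hMc
      rw [hinf]
      have h3 : M.map (MulAut.conj b).toMonoidHom = M :=
        map_conj_eq_of_mem (hM3 ((le_sup_right : S ⊓ F ≤ (S ⊓ E) ⊔ (S ⊓ F)) hb))
      rw [← h3]
      exact map_conj_mono b hM1
    rcases ih _ _ hE hEb h2 with h3 | h3
    · exact absurd h3 h1
    · exact ST.cent_of_comm hpr hS h (hC.st _ hEb) h3 h1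
  -- an element of `W_E` centralized by `S ⊓ F` is trivial
  have hfix : ∀ b ∈ S ⊓ F, b ∉ normalizer (WE p E : Set G) → ∀ w ∈ WE p E,
      w ∈ centralizer ((S ⊓ F : Subgroup G) : Set G) → w = 1 := by
    intro b hb hbn w hw hwc
    apply (hconj b hb hbn).2 w hw
    rw [WE_map_conj, mem_map_conj]
    have h1 : b * w = w * b := mem_centralizer_iff.mp hwc b hb
    have h2 : b⁻¹ * w * b = w := by rw [mul_assoc, ← h1]; group
    rw [h2]; exact hw
  by_contra hcon
  obtain ⟨b, hb, hbn⟩ := SetLike.not_le_iff_exists.mp hcon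
  by_cases hz : ∃ z ∈ S ⊓ F, z ≠ 1 ∧ z ∈ normalizer (WE p E : Set G)
  · obtain ⟨z, hz1, hz2, hz3⟩ := hz
    have h1 := ST.comm_hom_card (t := z) h.sb.WE_le_V (Y := WE p E) (fun w hw hc =>
      hfix b hb hbn w hw (k.fpf z hz1 hz2 w (h.sb.WE_le_V hw) hc)) (by
        intro w hw
        rw [commutatorElement_def]
        have e1 : w * z * w⁻¹ * z⁻¹ = w * (z * w⁻¹ * z⁻¹) := by group
        rw [e1]
        exact mul_mem hw ((mem_normalizer_iff.mp hz3 _).mp (inv_mem hw))) le_rfl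
    apply hW
    have h2 : WE p E ≤ WE p F := by
      intro y hy
      obtain ⟨w, hw, rfl⟩ := h1 y hy
      rw [← k.comm_V]
      exact commutator_mem_commutator (h.sb.WE_le_V hw) hz1
    exact Subgroup.eq_of_le_of_card_ge h2 (by rw [h.cardW, k.cardW])
  · push Not at hz
    have hb1 : b ≠ 1 := by
      rintro rfl
      exact hbn (one_mem _)
    obtain ⟨b', hb', hb'1, hb't⟩ := exists_third (B := S ⊓ F) (by rw [k.cardA]; exact hm) 1 b⁻¹
    have hbt1 : b' * b ≠ 1 := fun hc => hb't (eq_inv_of_mul_eq_one_left hc)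
    have hbt : b' * b ∈ S ⊓ F := mul_mem hb' hb
    have hsurj := ST.comm_hom_card (t := b) h.sb.WE_le_V (Y := WE p F) (fun w hw hc =>
      hfix b hb hbn w hw (k.fpf b hb hb1 w (h.sb.WE_le_V hw) hc)) (by
        intro w hw
        rw [← k.comm_V]
        exact commutator_mem_commutator (h.sb.WE_le_V hw) hb) (by rw [h.cardW, k.cardW])
    have hcb : ∀ x ∈ S ⊓ F, x ≠ 1 → ∀ w ∈ WE p E, x * w * x⁻¹ ∈ centralizer ((S ⊓ E : Subgroup G) : Set G) := by
      intro x hx hx1 w hw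
      have h1 := (hconj x hx (hz x hx hx1)).1
      rw [Subgroup.le_centralizer_iff] at h1
      apply h1
      rw [WE_map_conj, mem_map_conj]
      have e1 : x⁻¹ * (x * w * x⁻¹) * x = w := by group
      rw [e1]; exact hw
    have hAF : ∀ f ∈ WE p F, f ∈ centralizer ((S ⊓ E : Subgroup G) : Set G) := by
      intro f hf
      have h1 : b'⁻¹ * f * b' ∈ WE p F := conj_mem_of_le_normalizer' k.sb.WE_norm hb'.2 hf
      obtain ⟨w, hw, e⟩ := hsurj _ h1
      have e2 : f = (b' * w * b'⁻¹) * ((b' * b) * w⁻¹ * (b' * b)⁻¹) := by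
        have e3 : f = b' * (b'⁻¹ * f * b') * b'⁻¹ := by group
        rw [e3, ← e, commutatorElement_def]; group
      rw [e2]
      exact mul_mem (hcb b' hb' hb'1 w hw) (hcb _ hbt hbt1 w⁻¹ (inv_mem hw))
    apply h.sb.WE_not
    have h5 : WE p E = ⊥ := by
      rw [eq_bot_iff]
      intro w hw
      rw [mem_bot]
      apply ST.W_inf hpr hS h hw
      have h6 : ⁅w, b⁆ ∈ WE p F := by
        rw [← k.comm_V]
        exact commutator_mem_commutator (h.sb.WE_le_V hw) hb
      have h7 := hAF _ h6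
      have h8 := hcb b hb hb1 w hw
      have e1 : w = ⁅w, b⁆ * (b * w * b⁻¹) := by rw [commutatorElement_def]; group
      rw [e1]
      exact mul_mem h7 h8
    rw [h5]; exact bot_le

theorem main (hC : Cls p r S m c C) (hpr : p ≠ r) (hS : IsPGroup r S) (hm : 3 ≤ m) :
    ∀ n : ℕ, ∀ E F : Subgroup G, C E → C F → Nat.card ↥((S ⊓ E) ⊔ (S ⊓ F) : Subgroup G) ≤ n →
      WE p E = WE p F ∨ ⁅S ⊓ E, S ⊓ F⁆ = ⊥ := by
  intro n
  induction n with
  | zero =>
    intro E F hE hF hcard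
    have := Nat.card_pos (α := ↥((S ⊓ E) ⊔ (S ⊓ F) : Subgroup G))
    omega
  | succ n ih =>
    intro E F hE hF hcard
    by_cases hW : WE p E = WE p F
    · exact Or.inl hW
    right
    have h := hC.st E hE
    have k := hC.st F hF
    have h1 := hC.step hpr hS hm ih hE hF hcard hW
    have h2 := hC.step hpr hS hm ih hF hE (by rw [sup_comm]; exact hcard) (Ne.symm hW)
    have key : ∀ E F : Subgroup G, C E → S ⊓ F ≤ normalizer (WE p E : Set G) →
        S ⊓ F ≤ normalizer ((S ⊓ E : Subgroup G) : Set G) := by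
      intro E F hE h1 b hb
      have h3 := hC.conj E hE b hb.1
      have h4 : WE p E = WE p (E.map (MulAut.conj b).toMonoidHom) := by
        rw [WE_map_conj, map_conj_eq_of_mem (h1 hb)]
      have h5 := hC.inj _ _ hE h3 h4
      apply mem_normalizer_of_map_conj_eq
      rw [← inf_map_conj hb.1, ← h5]
    have h3 := key E F hE h1
    have h4 := key F E hF h2
    rw [eq_bot_iff]
    intro x hx
    have hxE : x ∈ S ⊓ E := commutator_le_left_of_le h3 hx
    have hxF : x ∈ S ⊓ F := commutator_le_right_of_le h4 hx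
    rw [mem_bot]
    by_contra hx1
    apply hW
    have h5 := ST.comm_hom_card (t := x) h.sb.WE_le_V (Y := WE p E) (fun w hw hc =>
      ST.W_inf hpr hS h hw (h.fpf x hxE hx1 w (h.sb.WE_le_V hw) hc)) (by
        intro w hw
        have := h.sb.WE_idem
        rw [← this]
        exact commutator_mem_commutator hw hxE.2) le_rfl
    have h6 : WE p E ≤ WE p F := by
      intro y hy
      obtain ⟨w, hw, rfl⟩ := h5 y hy
      rw [← k.comm_V]
      exact commutator_mem_commutator (h.sb.WE_le_V hw) hxF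
    exact Subgroup.eq_of_le_of_card_ge h6 (by rw [h.cardW, k.cardW])

/-- distinct members commute modulo `O_p(G)` -/
theorem comm (hC : Cls p r S m c C) (hpr : p ≠ r) (hS : IsPGroup r S) (hm : 3 ≤ m) {E F : Subgroup G}
    (hE : C E) (hF : C F) (hne : E ≠ F) : WE p E ≠ WE p F ∧ ⁅E, F⁆ ≤ pCore p G := by
  have h := hC.st E hE
  have k := hC.st F hF
  have hW : WE p E ≠ WE p F := fun hc => hne (hC.inj E F hE hF hc)
  refine ⟨hW, ?_⟩
  rcases hC.main hpr hS hm _ E F hE hF le_rfl with h1 | h1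
  · exact absurd h1 hW
  have hle : ∀ {K : Subgroup G}, ST p r S m c K → K ≤ pCore p G ⊔ (S ⊓ K) := by
    intro K x
    conv_lhs => rw [← x.gen]
    exact sup_le_sup_right x.sb.Q_le _
  refine (commutator_mono (hle h) (hle k)).trans ?_
  have hn := pCore_normal p G
  rw [← QuotientGroup.ker_mk' (pCore p G), ← Subgroup.map_eq_bot_iff, map_commutator, Subgroup.map_sup, Subgroup.map_sup,
    QuotientGroup.ker_mk']
  have hb : (pCore p G).map (QuotientGroup.mk' (pCore p G)) = ⊥ := by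
    rw [Subgroup.map_eq_bot_iff, QuotientGroup.ker_mk']
  rw [hb, bot_sup_eq, bot_sup_eq, ← map_commutator, h1, Subgroup.map_bot]

end Cls

end Cfsg.Agent.Lib.BBPair
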