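import Cfsg.Agent.Lib.BBPair4

/-!
# Pairs of subnormal Baumann blocks (helper78): conjugation, the case `p = 2`
-/

set_option autoImplicit false
set_option linter.unusedSectionVars false

namespace Cfsg.Agent.Lib.BBPair

open Subgroup Cfsg Cfsg.Agent.Lib.LocBase Cfsg.Agent.Lib.PReduced Cfsg.Agent.Lib.BBlock
open scoped commutatorElement

universe u
variable {G : Type u} [Group G]

/-- the conjugate of a subgroup -/
abbrev cj (g : G) (A : Subgroup G) : Subgroup G := A.map (MulAut.conj g).toMonoidHom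

theorem cQ (p : ℕ) (g : G) (A : Subgroup G) : pCoreOf p (cj g A) = cj g (pCoreOf p A) := by
  first
  | exact pCoreOf_map_conj p A g
  | exact (pCoreOf_map_conj p A g).symm

theorem cR (p : ℕ) (g : G) (A : Subgroup G) : pRes p (cj g A) = cj g (pRes p A) := by
  first
  | exact pRes_map_conj p A g
  | exact (pRes_map_conj p A g).symm

theorem cO (p : ℕ) (g : G) (A : Subgroup G) : OZ p (cj g A) = cj g (OZ p A) := (OZ_map_conj p A g).symm

theorem cC (g : G) (A : Subgroup G) : centralizer (cj g A : Set G) = cj g (centralizer (A : Set G)) := by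
  first
  | exact map_conj_centralizer A g
  | exact (map_conj_centralizer A g).symm

theorem cN (g : G) (A : Subgroup G) : normalizer (cj g A : Set G) = cj g (normalizer (A : Set G)) := by
  first
  | exact map_conj_normalizer A g
  | exact (map_conj_normalizer A g).symm

theorem cI (g : G) (A B : Subgroup G) : cj g A ⊓ cj g B = cj g (A ⊓ B) :=
  (Subgroup.map_inf _ _ _ (MulAut.conj g).injective).symm

theorem cB (g : G) (A B : Subgroup G) : ⁅cj g A, cj g B⁆ = cj g ⁅A, B⁆ := (map_commutator A B _).symm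

theorem cBau (p : ℕ) (g : G) (A : Subgroup G) : baumannSubgroupOf p (cj g A) = cj g (baumannSubgroupOf p A) := by
  first
  | exact bau_map_conj p A g
  | exact (bau_map_conj p A g).symm

theorem cTop (g : G) : cj g ⊤ = ⊤ := Subgroup.map_top_of_surjective _ (MulAut.conj g).surjective

theorem exists_cj (g : G) (X : Subgroup G) : ∃ Y, X = cj g Y :=
  ⟨cj g⁻¹ X, by rw [cj, cj, ← map_conj_mul, mul_inv_cancel, map_conj_one]⟩

variable [Finite G] {p : ℕ} [hp : Fact p.Prime]

theorem Blk.map_conj {T E : Subgroup G} (h : Blk p T E) (g : G) : Blk p (cj g T) (cj g E) := by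
  refine ⟨?_, ?_, ?_, ?_, ?_, ?_⟩
  · have := h.syl.map_conj g
    rwa [Subgroup.map_top_of_surjective _ (MulAut.conj g).surjective] at this
  · rw [cR, h.res]
  · rw [cBau, cB, h.comm]
  · rw [cO, cB]
    intro hb
    exact h.act ((Subgroup.map_eq_bot_iff_of_injective _ (MulAut.conj g).injective).mp hb)
  · intro X hX1 hX2 hX3
    obtain ⟨Y, rfl⟩ := exists_cj g X
    rw [cQ, cO, cC, cI, map_conj_le_map_conj] at hX1
    rw [cQ, cO, map_conj_le_map_conj] at hX2
    rw [cN, map_conj_le_map_conj] at hX3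
    rw [cQ, cO, cC, cI, map_conj_inj, map_conj_inj]
    exact h.irr Y hX1 hX2 hX3
  · rw [cQ, cO, cB]
    rcases h.alt with h1 | ⟨h1, h2⟩
    · left; rw [map_conj_inj]; exact h1
    · right
      refine ⟨?_, ?_⟩
      · intro X hX1 hX2 hX3
        obtain ⟨Y, rfl⟩ := exists_cj g X
        rw [map_conj_le_map_conj] at hX1 hX2
        rw [cN, map_conj_le_map_conj] at hX3
        rw [map_conj_inj, map_conj_inj]
        exact h1 Y hX1 hX2 hX3
      · intro hb
        exact h2 ((Subgroup.map_eq_bot_iff_of_injective _ (MulAut.conj g).injective).mp hb)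

theorem SB.map_conj {E : Subgroup G} (h : SB p E) (g : G) : SB p (cj g E) := by
  obtain ⟨T, hT⟩ := h.blk
  refine ⟨h.cp, ⟨cj g T, Blk.map_conj hT g⟩, ?_, ?_⟩
  · have h1 := h.sub.map (MulAut.conj g).toMonoidHom
    rwa [Subgroup.map_top_of_surjective _ (MulAut.conj g).surjective] at h1
  · rw [cQ, cB, h.qe]

/-- the solvable blocks for `p = 2` -/
structure S2 (E : Subgroup G) : Prop where
  sb : SB 2 E
  cardE : Nat.card E = 3 * Nat.card ↥(pCoreOf 2 E)
  ab : pCoreOf 2 E = OZ 2 (pCoreOf 2 E)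
  cardO : Nat.card ↥(OZ 2 (pCoreOf 2 E)) = 4 * Nat.card ↥(OZ 2 (pCoreOf 2 E) ⊓ centralizer (E : Set G))

instance fact3 : Fact (Nat.Prime 3) := ⟨by norm_num⟩

theorem S2.map_conj {E : Subgroup G} (h : S2 E) (g : G) : S2 (cj g E) := by
  refine ⟨h.sb.map_conj g, ?_, ?_, ?_⟩
  · rw [cQ, card_map_conj, card_map_conj, h.cardE]
  · rw [cQ, cO, ← h.ab]
  · rw [cQ, cO, cC, cI, card_map_conj, card_map_conj, h.cardO]

theorem S2.st {S E : Subgroup G} (hS : IsSyl 3 S ⊤) (h : S2 E) : ST 2 3 S 3 4 E := by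
  have h1 := gen_of (p := 2) (r := 3) (by norm_num) hS h.sb (i := 1) (by rw [h.cardE, pow_one])
  refine ⟨h.sb, h1.2, by rw [h1.1, pow_one], cardW_of (by norm_num) hS.pgroup h.sb h1.2 h.cardO, ?_⟩
  intro a ha ha1
  apply fpf_of (r := 3) (by norm_num) hS.pgroup h.sb h1.2 ha
  intro w hw hc
  apply W_inf' (r := 3) (by norm_num) hS.pgroup h.sb h1.2 hw
  -- `a` generates `S ⊓ E`
  have h2 : zpowers a = S ⊓ E := by
    have h3 : zpowers a ≤ S ⊓ E := by rw [zpowers_le]; exact ha
    refine Subgroup.eq_of_le_of_card_ge h3 ?_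
    have h4 : Nat.card ↥(zpowers a) ∣ Nat.card ↥(S ⊓ E) := Subgroup.card_dvd_of_le h3
    rw [h1.1, pow_one] at h4 ⊢
    rcases (Nat.dvd_prime Nat.prime_three).mp h4 with h5 | h5
    · exfalso; apply ha1
      have := Subgroup.card_eq_one.mp h5
      rwa [zpowers_eq_bot] at this
    · exact h5.ge
  rw [← h2, mem_centralizer_iff]
  intro x hx
  obtain ⟨k, rfl⟩ := mem_zpowers_iff.mp hx
  have h3 : Commute a w := hc
  exact (h3.zpow_left k).eq

theorem bot_norm (K : Subgroup G) : K ≤ normalizer ((⊥ : Subgroup G) : Set G) := norm_top _ inferInstance _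

/-- a `p'`-element trivial on a chain `1 ≤ X ≤ O_p(G)` is trivial -/
theorem triv_of_chain (hcp : centralizer (pCore p G : Set G) ≤ pCore p G) {c : G} (ho : (orderOf c).Coprime p)
    {X : Subgroup G} (hXO : X ≤ pCore p G) (h1 : ∀ o ∈ pCore p G, ⁅c, o⁆ ∈ X) (h2 : ∀ x ∈ X, c * x = x * c) : c = 1 := by
  have h3 : c ∈ centralizer (pCore p G : Set G) := by
    rw [mem_centralizer_iff]
    intro o ho'
    have h4 : ⁅c, o⁆ ∈ X := h1 o ho'
    have h5 : ⁅c, ⁅c, o⁆⁆ ∈ (⊥ : Subgroup G) := by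
      rw [mem_bot, commutatorElement_eq_one_iff_mul_comm]
      exact h2 _ h4
    have h6 := commutator_mem_of_coprime (isPGroup_pCore p G) ho (hXO h4) (bot_norm ⊤ (mem_top _)) (bot_norm ⊤ (mem_top _)) h5
    rw [mem_bot, commutatorElement_eq_one_iff_mul_comm] at h6
    exact h6.symm
  have h4 := hcp h3
  exact eq_one_of_isPGroup_of_pow (isPGroup_pCore p G) h4 ho (pow_orderOf_eq_one c)

/-- elements of `A ⊔ B` act trivially modulo `X` if `A` and `B` do -/
theorem comm_sup_mem {A B P X : Subgroup G} (hAX : A ≤ normalizer (X : Set G)) (hBX : B ≤ normalizer (X : Set G))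
    (hA : ∀ a ∈ A, ∀ o ∈ P, ⁅a, o⁆ ∈ X) (hB : ∀ b ∈ B, ∀ o ∈ P, ⁅b, o⁆ ∈ X) :
    ∀ c ∈ A ⊔ B, ∀ o ∈ P, ⁅c, o⁆ ∈ X := by
  have h1 : A ⊔ B = closure ((A : Set G) ∪ B) := by rw [Subgroup.closure_union, closure_eq, closure_eq]
  have h2 : ⁅closure ((A : Set G) ∪ B), P⁆ ≤ X := by
    apply commutator_closure_le
    · rw [← h1]; exact sup_le hAX hBX
    · rintro x (hx | hx) o ho
      · exact hA x hx o ho
      · exact hB x hx o ho
  intro c hc o ho
  rw [h1] at hc
  exact h2 (commutator_mem_commutator hc ho)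

theorem coprime_of_isPGroup {r : ℕ} [hr : Fact r.Prime] {S : Subgroup G} (hS : IsPGroup r S) {c : G} (hc : c ∈ S)
    (hpr : p ≠ r) : (orderOf c).Coprime p := by
  obtain ⟨k, hk⟩ := hS ⟨c, hc⟩
  have h1 : c ^ r ^ k = 1 := congrArg Subtype.val hk
  have h2 : orderOf c ∣ r ^ k := orderOf_dvd_of_pow_eq_one h1
  have h3 : Nat.Coprime (r ^ k) p := Nat.Coprime.pow_left k ((Nat.coprime_primes hr.out hp.out).mpr hpr.symm)
  exact Nat.Coprime.coprime_dvd_left h2 h3

theorem fix_of_four {W : Subgroup G} (hW : Nat.card W = 4) {c : G} (hc : c ∈ normalizer (W : Set G))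
    (ho : (orderOf c).Coprime 2) {w0 : G} (h0 : w0 ∈ W) (h01 : w0 ≠ 1) (hcw : c * w0 = w0 * c) :
    ∀ w ∈ W, c * w = w * c := by
  intro w hw
  by_contra hne
  have hc1 : c * w * c⁻¹ ∈ W := (mem_normalizer_iff.mp hc _).mp hw
  have hc2 : c * (c * w * c⁻¹) * c⁻¹ ∈ W := (mem_normalizer_iff.mp hc _).mp hc1
  have hw1 : w ≠ 1 := by rintro rfl; exact hne (by simp)
  have hw0 : w ≠ w0 := by rintro rfl; exact hne hcw
  have e1 : c * w * c⁻¹ ≠ w := fun h => hne (by rw [mul_inv_eq_iff_eq_mul] at h; exact h)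
  have e2 : c * w * c⁻¹ ≠ 1 := fun h => hw1 (by
    rw [mul_inv_eq_iff_eq_mul, one_mul] at h
    exact mul_eq_left.mp h)
  have hcw' : c * w0 * c⁻¹ = w0 := by rw [hcw, mul_inv_cancel_right]
  have e3 : c * w * c⁻¹ ≠ w0 := fun h => hw0 (by
    rw [← hcw'] at h
    exact mul_left_cancel (mul_right_cancel h))
  have hsub : ({1, w0, w, c * w * c⁻¹} : Set G) ⊆ W := by
    rintro x (rfl | rfl | rfl | rfl)
    · exact W.one_mem
    · exact h0
    · exact hw
    · exact hc1
  have hcard : ({1, w0, w, c * w * c⁻¹} : Set G).ncard = 4 := by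
    rw [Set.ncard_insert_of_notMem, Set.ncard_insert_of_notMem, Set.ncard_pair e1.symm]
    · simp only [Set.mem_insert_iff, Set.mem_singleton_iff, not_or]
      exact ⟨hw0.symm, e3.symm⟩
    · simp only [Set.mem_insert_iff, Set.mem_singleton_iff, not_or]
      exact ⟨h01.symm, hw1.symm, e2.symm⟩
  have hWc : (W : Set G).ncard = 4 := hW
  have heq := Set.eq_of_subset_of_ncard_le hsub (by rw [hcard, hWc]) (Set.toFinite _)
  have h5 : c * (c * w * c⁻¹) * c⁻¹ ∈ ({1, w0, w, c * w * c⁻¹} : Set G) := by rw [heq]; exact hc2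
  rcases h5 with h5 | h5 | h5 | h5
  · apply e2
    rw [mul_inv_eq_iff_eq_mul, one_mul] at h5
    exact mul_eq_left.mp h5
  · exact e3 (mul_left_cancel (mul_right_cancel (h5.trans hcw'.symm)))
  · apply hne
    have h6 : c ^ 2 ^ 1 ∈ centralizer ({w} : Set G) := by
      rw [mem_centralizer_iff]
      rintro x rfl
      have h7 : c * c * x = x * (c * c) := by
        calc c * c * x = (c * (c * x * c⁻¹) * c⁻¹) * (c * c) := by group
          _ = x * (c * c) := by rw [h5]
      rw [pow_one, pow_two]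
      exact h7.symm
    have h7 := mem_of_coprime_of_pow_mem ho h6
    exact (mem_centralizer_iff.mp h7 w rfl).symm
  · exact e1 (mul_left_cancel (mul_right_cancel h5))

theorem S2.inj {S E F : Subgroup G} (hS : IsSyl 3 S ⊤) (h : S2 E) (k : S2 F) (hW : WE 2 E = WE 2 F) : E = F := by
  have hst := h.st hS
  have kst := k.st hS
  have hQ : ∀ {K : Subgroup G}, S2 K → WE 2 K = pCoreOf 2 K := by
    intro K x
    unfold WE
    rw [← x.ab]
    exact x.sb.qe
  have hWO : WE 2 E ≤ pCore 2 G := h.sb.WE_le_V.trans V_le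
  set H := (S ⊓ E) ⊔ (S ⊓ F) with hH
  have hHS : H ≤ S := sup_le inf_le_left inf_le_left
  have hEW : S ⊓ E ≤ normalizer (WE 2 E : Set G) := inf_le_right.trans h.sb.WE_norm
  have hFW : S ⊓ F ≤ normalizer (WE 2 E : Set G) := by rw [hW]; exact inf_le_right.trans k.sb.WE_norm
  have hHW : H ≤ normalizer (WE 2 E : Set G) := sup_le hEW hFW
  have hHO : ∀ c ∈ H, ∀ o ∈ pCore 2 G, ⁅c, o⁆ ∈ WE 2 E := by
    apply comm_sup_mem hEW hFW
    · intro a ha o ho
      have h1 := h.sb.comm_O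
      rw [← hQ h] at h1
      apply h1
      rw [commutator_comm]
      exact commutator_mem_commutator ha.2 ho
    · intro b hb o ho
      have h1 := k.sb.comm_O
      rw [← hQ k, ← hW] at h1
      apply h1
      rw [commutator_comm]
      exact commutator_mem_commutator hb.2 ho
  have hco : ∀ c ∈ H, (orderOf c).Coprime 2 := fun c hc => coprime_of_isPGroup hS.pgroup (hHS hc) (by norm_num)
  -- semiregularity
  have hreg : ∀ w0 ∈ WE 2 E, w0 ≠ 1 → ∀ c ∈ H, c * w0 = w0 * c → c = 1 := by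
    intro w0 hw0 hw01 c hc hcw
    apply triv_of_chain h.sb.cp (hco c hc) hWO (hHO c hc)
    exact fix_of_four hst.cardW (hHW hc) (hco c hc) hw0 hw01 hcw
  obtain ⟨w0, hw0, hw01⟩ : ∃ w0 ∈ WE 2 E, w0 ≠ 1 := by
    by_contra hcon
    push Not at hcon
    have h1 : WE 2 E = ⊥ := by rw [eq_bot_iff]; exact fun x hx => mem_bot.mpr (hcon x hx)
    have h2 := hst.cardW
    rw [h1, Subgroup.card_bot] at h2
    omega
  have hcardH : Nat.card H ≤ 3 := by
    let f : Option ↥H → ↥(WE 2 E) := fun x => match x with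
      | none => 1
      | some c => ⟨(c : G) * w0 * (c : G)⁻¹, conj_mem_of_le_normalizer hHW c.2 hw0⟩
    have hf : Function.Injective f := by
      rintro (_ | a) (_ | b) hab
      · rfl
      · exfalso
        have h1 : (1 : G) = (b : G) * w0 * (b : G)⁻¹ := congrArg Subtype.val hab
        apply hw01
        rw [eq_mul_inv_iff_mul_eq, one_mul] at h1
        exact (mul_eq_left.mp h1.symm)
      · exfalso
        have h1 : (a : G) * w0 * (a : G)⁻¹ = 1 := congrArg Subtype.val hab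
        apply hw01
        rw [mul_inv_eq_iff_eq_mul, one_mul] at h1
        exact (mul_eq_left.mp h1)
      · have h1 : (a : G) * w0 * (a : G)⁻¹ = (b : G) * w0 * (b : G)⁻¹ := congrArg Subtype.val hab
        have h2 : ((b : G)⁻¹ * a) * w0 = w0 * ((b : G)⁻¹ * a) := by
          calc ((b : G)⁻¹ * a) * w0 = (b : G)⁻¹ * ((a : G) * w0 * (a : G)⁻¹) * a := by group
            _ = (b : G)⁻¹ * ((b : G) * w0 * (b : G)⁻¹) * a := by rw [h1]
            _ = w0 * ((b : G)⁻¹ * a) := by group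
        have h3 := hreg w0 hw0 hw01 _ (mul_mem (inv_mem b.2) a.2) h2
        congr 1
        exact Subtype.ext (inv_mul_eq_one.mp h3).symm
    have h1 := Nat.card_le_card_of_injective f hf
    rw [Finite.card_option, hst.cardW] at h1
    omega
  have e1 : S ⊓ E = H := Subgroup.eq_of_le_of_card_ge le_sup_left (by rw [hst.cardA]; exact hcardH)
  have e2 : S ⊓ F = H := Subgroup.eq_of_le_of_card_ge le_sup_right (by rw [kst.cardA]; exact hcardH)
  rw [← hst.gen, ← kst.gen, e1, e2, ← hQ h, ← hQ k, hW]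

theorem S2.cls {S : Subgroup G} (hS : IsSyl 3 S ⊤) : Cls 2 3 S 3 4 (S2 : Subgroup G → Prop) :=
  ⟨fun _ h => h.st hS, fun _ h s _ => h.map_conj s, fun _ _ h k hW => h.inj hS k hW⟩

/-- the case `p = 2` -/
theorem S2.main {E F : Subgroup G} (h : S2 E) (k : S2 F) : E = F ∨ ⁅E, F⁆ = ⊥ := by
  obtain ⟨S, hS⟩ := exists_isSyl 3 (⊤ : Subgroup G)
  by_cases hne : E = F
  · exact Or.inl hne
  right
  obtain ⟨h1, h2⟩ := (S2.cls hS).comm (by norm_num) hS.pgroup le_rfl h k hne
  refine h.sb.final k.sb h2 h1 (Or.inl h.ab) (Or.inl k.ab) ?_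
  intro hx
  exfalso
  apply hx.nab
  rw [commutator_eq_bot_iff_le_centralizer, h.ab]
  exact (elem_iff.mp (elem_OZ 2 _)).1

end Cfsg.Agent.Lib.BBPair
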