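import Cfsg.Agent.Lib.BBPair5

/-!
# Pairs of subnormal Baumann blocks (helper78): quaternion groups acting on a section of order 9
-/

set_option autoImplicit false
set_option linter.unusedSectionVars false

namespace Cfsg.Agent.Lib.BBPair

open Subgroup Cfsg Cfsg.Agent.Lib.LocBase Cfsg.Agent.Lib.PReduced Cfsg.Agent.Lib.BBlock
open scoped commutatorElement

universe u

/-- `A` looks like a quaternion group of order 8 with involution `z` -/
structure Q8 {H : Type*} [Group H] (A : Subgroup H) (z : H) : Prop where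
  card : Nat.card A = 8
  mem : z ∈ A
  ne : z ≠ 1
  cases : ∀ a ∈ A, a = 1 ∨ a = z ∨ a * a = z

namespace Q8

variable {H : Type*} [Group H] [Finite H] {A X : Subgroup H} {z b : H}

theorem sq (h : Q8 A z) : z * z = 1 := by
  -- otherwise `z` would be its own square
  have h2 := h.card
  have h8 : z ^ 8 = 1 := by
    have h3 : (⟨z, h.mem⟩ : ↥A) ^ Nat.card A = 1 := pow_card_eq_one'
    rw [h2] at h3
    exact congrArg Subtype.val h3
  rcases h.cases (z * z) (mul_mem h.mem h.mem) with h1 | h1 | h1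
  · exact h1
  · exact absurd (mul_eq_left.mp h1) h.ne
  · -- z^4 = z
    exfalso
    have h3 : z * (z * z) = 1 := by
      have h4 : z * (z * (z * z)) = z * 1 := by rw [mul_one, ← mul_assoc]; exact h1
      exact mul_left_cancel h4
    apply h.ne
    have h5 : z ^ 8 = z * z := by
      calc z ^ 8 = (z * (z * z)) * (z * (z * z)) * (z * z) := by
            simp only [pow_succ, pow_zero, one_mul, mul_assoc]
        _ = z * z := by rw [h3]; group
    rw [h8] at h5
    rw [← h5, mul_one] at h3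
    exact h3

theorem central (h : Q8 A z) {a : H} (ha : a ∈ A) : a * z = z * a := by
  rcases h.cases a ha with h1 | h1 | h1
  · rw [h1]; group
  · rw [h1]
  · rw [← h1]; group

/-- every nontrivial element has `z` as a power -/
theorem pow_eq (h : Q8 A z) {a : H} (ha : a ∈ A) (ha1 : a ≠ 1) : a = z ∨ a * a = z := by
  rcases h.cases a ha with h1 | h1
  · exact absurd h1 ha1
  · exact h1

/-- the element `z` is unique -/
theorem unique (h : Q8 A z) {z' : H} (h' : Q8 A z') : z' = z := by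
  rcases h.cases z' h'.mem with h1 | h1 | h1
  · exact absurd h1 h'.ne
  · exact h1
  · rw [h'.sq] at h1
    exact absurd h1.symm h.ne

/-- an element of order 4 does not commute with everything -/
theorem exists_not_comm (h : Q8 A z) {a : H} (ha : a ∈ A) (haz : a * a = z) : ∃ c ∈ A, a * c ≠ c * a := by
  by_contra hcon
  push Not at hcon
  have hsub : (A : Set H) ⊆ {1, z, a, a * z} := by
    intro c hc
    rcases h.cases c hc with h1 | h1 | h1
    · simp [h1]
    · simp [h1]
    · -- (a c)^2 = a^2 c^2 = 1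
      have h2 : (a * c) * (a * c) = 1 := by
        calc (a * c) * (a * c) = a * (c * a) * c := by group
          _ = a * (a * c) * c := by rw [hcon c hc]
          _ = (a * a) * (c * c) := by group
          _ = 1 := by rw [haz, h1, h.sq]
      have h3 : a * z * a = 1 := by
        calc a * z * a = z * (a * a) := by rw [h.central ha]; group
          _ = 1 := by rw [haz, h.sq]
      rcases h.cases (a * c) (mul_mem ha hc) with h4 | h4 | h4
      · -- c = a⁻¹ = a z
        have h5 : c = a * z := by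
          have h6 : a⁻¹ = a * z := by
            rw [inv_eq_iff_mul_eq_one, ← mul_assoc, haz, h.sq]
          rw [← h6]
          exact eq_inv_of_mul_eq_one_right h4
        simp [h5]
      · have h5 : c = a := by
          rw [← haz] at h4
          exact mul_left_cancel h4
        simp [h5]
      · rw [h2] at h4
        exact absurd h4.symm h.ne
  have h1 := Set.ncard_le_ncard hsub (Set.toFinite _)
  have h2 : (A : Set H).ncard = 8 := h.card
  have h3 : ({1, z, a, a * z} : Set H).ncard ≤ 4 := by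
    refine (Set.ncard_insert_le _ _).trans ?_
    refine (Nat.add_le_add_right (Set.ncard_insert_le _ _) 1).trans ?_
    refine (Nat.add_le_add_right (Nat.add_le_add_right (Set.ncard_insert_le _ _) 1) 1).trans ?_
    rw [Set.ncard_singleton]
  omega

/-- the key lemma for a group of order 9 -/
theorem six (h : Q8 A z) (hcard : Nat.card X = 9) (hAX : A ≤ normalizer (X : Set H))
    (hzi : ∀ x ∈ X, z * x * z⁻¹ = x⁻¹) (hbX : b ∈ normalizer (X : Set H))
    (hbi : ∀ x ∈ X, (b * b) * x * (b * b)⁻¹ = x⁻¹) :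
    ∃ a ∈ A, a * a = z ∧ ∀ x ∈ X, (a⁻¹ * b) * x = x * (a⁻¹ * b) := by
  -- no involutions in `X`
  have hinv : ∀ x ∈ X, x = x⁻¹ → x = 1 := by
    intro x hx he
    have h1 : x ^ 2 = 1 := by rw [pow_two]; nth_rw 2 [he]; exact mul_inv_cancel x
    have h2 : orderOf x ∣ 2 := orderOf_dvd_of_pow_eq_one h1
    have h3 : orderOf x ∣ 9 := by
      rw [← hcard]
      exact Subgroup.orderOf_dvd_natCard X hx
    have h4 : orderOf x ∣ 1 := by
      have : Nat.gcd 2 9 = 1 := by norm_num
      rw [← this]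
      exact Nat.dvd_gcd h2 h3
    exact orderOf_eq_one_iff.mp (Nat.dvd_one.mp h4)
  obtain ⟨w0, hw0, hw01⟩ : ∃ w0 ∈ X, w0 ≠ 1 := by
    by_contra hcon
    push Not at hcon
    have h1 : X = ⊥ := by rw [eq_bot_iff]; exact fun x hx => mem_bot.mpr (hcon x hx)
    rw [h1, Subgroup.card_bot] at hcard
    omega
  -- semiregularity
  have hreg : ∀ c ∈ A, ∀ x ∈ X, c * x = x * c → c ≠ 1 → x = 1 := by
    intro c hc x hx hcx hc1
    apply hinv x hx
    rw [← hzi x hx]
    rcases h.pow_eq hc hc1 with h1 | h1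
    · rw [← h1, hcx]; group
    · rw [← h1]
      have h2 : c * c * x = x * (c * c) := by rw [mul_assoc, hcx, ← mul_assoc, hcx, mul_assoc]
      rw [h2]; group
  let f : Option ↥A → ↥X := fun x => match x with
    | none => 1
    | some c => ⟨(c : H) * w0 * (c : H)⁻¹, conj_mem_of_le_normalizer hAX c.2 hw0⟩
  have hf : Function.Injective f := by
    rintro (_ | a) (_ | b) hab
    · rfl
    · exfalso
      have h1 : (1 : H) = (b : H) * w0 * (b : H)⁻¹ := congrArg Subtype.val hab
      apply hw01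
      rw [eq_mul_inv_iff_mul_eq, one_mul] at h1
      exact (mul_eq_left.mp h1.symm)
    · exfalso
      have h1 : (a : H) * w0 * (a : H)⁻¹ = 1 := congrArg Subtype.val hab
      apply hw01
      rw [mul_inv_eq_iff_eq_mul, one_mul] at h1
      exact (mul_eq_left.mp h1)
    · have h1 : (a : H) * w0 * (a : H)⁻¹ = (b : H) * w0 * (b : H)⁻¹ := congrArg Subtype.val hab
      have h2 : ((b : H)⁻¹ * a) * w0 = w0 * ((b : H)⁻¹ * a) := by
        calc ((b : H)⁻¹ * a) * w0 = (b : H)⁻¹ * ((a : H) * w0 * (a : H)⁻¹) * a := by group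
          _ = (b : H)⁻¹ * ((b : H) * w0 * (b : H)⁻¹) * a := by rw [h1]
          _ = w0 * ((b : H)⁻¹ * a) := by group
      have h3 : (b : H)⁻¹ * a = 1 := by
        by_contra hne
        exact hw01 (hreg _ (mul_mem (inv_mem b.2) a.2) w0 hw0 h2 hne)
      congr 1
      exact Subtype.ext (inv_mul_eq_one.mp h3).symm
  have hfs : Function.Surjective f := by
    have _ := Fintype.ofFinite ↥X
    have _ := Fintype.ofFinite ↥A
    have heq : Nat.card (Option ↥A) = Nat.card ↥X := by rw [Finite.card_option, h.card, hcard]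
    exact ((Fintype.bijective_iff_injective_and_card f).mpr ⟨hf, by
      rw [← Nat.card_eq_fintype_card, ← Nat.card_eq_fintype_card]; exact heq⟩).2
  have hbw : b * w0 * b⁻¹ ∈ X := (mem_normalizer_iff.mp hbX _).mp hw0
  obtain ⟨o, ho⟩ := hfs ⟨_, hbw⟩
  -- `b w0 b⁻¹ = a w0 a⁻¹`
  obtain ⟨a, ha, hab⟩ : ∃ a ∈ A, a * w0 * a⁻¹ = b * w0 * b⁻¹ := by
    rcases o with _ | a
    · exfalso
      have h1 : (1 : H) = b * w0 * b⁻¹ := congrArg Subtype.val ho
      apply hw01
      rw [eq_mul_inv_iff_mul_eq, one_mul] at h1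
      exact (mul_eq_left.mp h1.symm)
    · exact ⟨a, a.2, congrArg Subtype.val ho⟩
  have hb2 := hbi w0 hw0
  have haz : a * a = z := by
    rcases h.cases a ha with h1 | h1 | h1
    · exfalso
      apply hw01
      apply hinv w0 hw0
      rw [h1] at hab
      have h2 : b * w0 * b⁻¹ = w0 := by rw [← hab]; group
      rw [← hb2]
      calc w0 = b * w0 * b⁻¹ := h2.symm
        _ = b * (b * w0 * b⁻¹) * b⁻¹ := by rw [h2, h2]
        _ = (b * b) * w0 * (b * b)⁻¹ := by group
    · exfalso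
      apply hw01
      apply hinv w0 hw0
      rw [h1, hzi w0 hw0] at hab
      have h2 : w0 = (b * b) * w0 * (b * b)⁻¹ := by
        calc w0 = (w0⁻¹)⁻¹ := by group
          _ = (b * w0 * b⁻¹)⁻¹ := by rw [hab]
          _ = b * w0⁻¹ * b⁻¹ := by group
          _ = b * (b * w0 * b⁻¹) * b⁻¹ := by rw [hab]
          _ = _ := by group
      rw [hb2] at h2
      exact h2
    · exact h1
  refine ⟨a, ha, haz, ?_⟩
  set g := a⁻¹ * b with hg
  have hg1 : g * w0 = w0 * g := by
    calc g * w0 = a⁻¹ * (b * w0 * b⁻¹) * b := by rw [hg]; group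
      _ = a⁻¹ * (a * w0 * a⁻¹) * b := by rw [hab]
      _ = w0 * g := by rw [hg]; group
  set w1 := a * w0 * a⁻¹ with hw1
  have hw1X : w1 ∈ X := conj_mem_of_le_normalizer hAX ha hw0
  have hg2 : g * w1 = w1 * g := by
    have h1 : g * w1 * g⁻¹ = w1 := by
      calc g * w1 * g⁻¹ = a⁻¹ * (b * w1 * b⁻¹) * a := by rw [hg]; group
        _ = a⁻¹ * ((b * b) * w0 * (b * b)⁻¹) * a := by rw [hab]; group
        _ = a⁻¹ * w0⁻¹ * a := by rw [hb2]
        _ = a⁻¹ * (z * w0 * z⁻¹) * a := by rw [hzi w0 hw0]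
        _ = w1 := by rw [← haz, hw1]; group
    rw [← mul_inv_eq_iff_eq_mul]
    exact h1
  -- the fixed point subgroup
  set C := X ⊓ centralizer ({g} : Set H) with hC
  have hCX : C ≤ X := inf_le_left
  have hw0C : w0 ∈ C := ⟨hw0, mem_centralizer_iff.mpr (by
    rintro x rfl
    exact hg1)⟩
  have hw1C : w1 ∈ C := ⟨hw1X, mem_centralizer_iff.mpr (by
    rintro x rfl
    exact hg2)⟩
  have hd01 : w1 ≠ w0 := by
    intro he
    apply hw01
    refine hreg a ha w0 hw0 ?_ ?_
    · rw [hw1, mul_inv_eq_iff_eq_mul] at he; exact he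
    · rintro rfl
      rw [mul_one] at haz
      exact h.ne haz.symm
  have hd02 : w1 ≠ w0⁻¹ := by
    intro he
    apply hw01
    -- then `a` and `z` agree on `w0`
    refine hreg (z⁻¹ * a) (mul_mem (inv_mem h.mem) ha) w0 hw0 ?_ ?_
    · have h1 : a * w0 * a⁻¹ = z * w0 * z⁻¹ := by rw [hzi w0 hw0]; exact he
      calc (z⁻¹ * a) * w0 = z⁻¹ * (a * w0 * a⁻¹) * a := by group
        _ = z⁻¹ * (z * w0 * z⁻¹) * a := by rw [h1]
        _ = w0 * (z⁻¹ * a) := by group
    · intro h1
      have h2 : a = z := (inv_mul_eq_one.mp h1).symm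
      rw [h2, h.sq] at haz
      exact h.ne haz.symm
  have hsub : ({1, w0, w0⁻¹, w1} : Set H) ⊆ C := by
    rintro x (rfl | rfl | rfl | rfl)
    · exact C.one_mem
    · exact hw0C
    · exact inv_mem hw0C
    · exact hw1C
  have hw11 : w1 ≠ 1 := by
    intro h1
    apply hw01
    rw [hw1, mul_inv_eq_iff_eq_mul, one_mul] at h1
    exact (mul_eq_left.mp h1)
  have hcardS : ({1, w0, w0⁻¹, w1} : Set H).ncard = 4 := by
    rw [Set.ncard_insert_of_notMem, Set.ncard_insert_of_notMem, Set.ncard_pair hd02.symm]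
    · simp only [Set.mem_insert_iff, Set.mem_singleton_iff, not_or]
      exact ⟨fun he => hw01 (hinv w0 hw0 he), hd01.symm⟩
    · simp only [Set.mem_insert_iff, Set.mem_singleton_iff, not_or]
      exact ⟨hw01.symm, fun he => hw01 (by rw [eq_comm, inv_eq_one] at he; exact he), hw11.symm⟩
  have h4 : 4 ≤ Nat.card C := by
    have := Set.ncard_le_ncard hsub (Set.toFinite _)
    rw [hcardS] at this
    exact this
  have h9 : Nat.card C ∣ 9 := by rw [← hcard]; exact Subgroup.card_dvd_of_le hCX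
  have hC9 : Nat.card C = 9 := by
    have h5 : Nat.card C ≤ 9 := Nat.le_of_dvd (by norm_num) h9
    interval_cases h6 : Nat.card C <;> first | rfl | (exfalso; revert h9; decide)
  have hCeq : C = X := Subgroup.eq_of_le_of_card_ge hCX (by rw [hC9, hcard])
  intro x hx
  rw [← hCeq] at hx
  exact (mem_centralizer_iff.mp hx.2 g rfl)

end Q8

variable {G : Type u} [Group G] [Finite G]

theorem card_map_quot {K Y N : Subgroup G} [hn : (Y.subgroupOf N).Normal] (hK : K ≤ N) :
    Nat.card ↥((K.subgroupOf N).map (QuotientGroup.mk' (Y.subgroupOf N))) = Y.relIndex K := by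
  rw [← Subgroup.relIndex_ker, QuotientGroup.ker_mk', Subgroup.relIndex_subgroupOf hK]

theorem inf_eq_bot_of_pgroups {p r : ℕ} [hp : Fact p.Prime] [hr : Fact r.Prime] (hpr : p ≠ r) {A Y : Subgroup G}
    (hA : IsPGroup r A) (hY : IsPGroup p Y) {a : G} (ha : a ∈ A) (haY : a ∈ Y) : a = 1 :=
  eq_one_of_isPGroup_of_pow hY haY (coprime_of_isPGroup hA ha hpr) (pow_orderOf_eq_one a)

theorem Q8.isPGroup {A : Subgroup G} {z : G} (h : Q8 A z) : IsPGroup 2 A := by
  rw [IsPGroup.iff_card]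
  exact ⟨3, by rw [h.card]; norm_num⟩

/-- the key lemma for a section of order 9 -/
theorem Q8.six_sec {A X Y : Subgroup G} {z b : G} (h : Q8 A z) (hYX : Y ≤ X) (hXY : X ≤ normalizer (Y : Set G))
    (hY3 : IsPGroup 3 Y) (hcard : Nat.card X = 9 * Nat.card Y) (hAX : A ≤ normalizer (X : Set G))
    (hAY : A ≤ normalizer (Y : Set G)) (hzi : ∀ x ∈ X, z * x * z⁻¹ * x ∈ Y) (hbX : b ∈ normalizer (X : Set G))
    (hbY : b ∈ normalizer (Y : Set G)) (hbi : ∀ x ∈ X, (b * b) * x * (b * b)⁻¹ * x ∈ Y) :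
    ∃ a ∈ A, a * a = z ∧ ∀ x ∈ X, ⁅x, a⁻¹ * b⁆ ∈ Y := by
  set N := normalizer (Y : Set G) with hN
  have hnorm : (Y.subgroupOf N).Normal := by
    rw [hN]; infer_instance
  set π := QuotientGroup.mk' (Y.subgroupOf N) with hπ
  have hmem : ∀ {x : G} (hx : x ∈ N), π ⟨x, hx⟩ = 1 ↔ x ∈ Y := by
    intro x hx
    rw [hπ, QuotientGroup.mk'_apply, QuotientGroup.eq_one_iff, mem_subgroupOf]
  have hAY1 : ∀ a ∈ A, a ∈ Y → a = 1 := fun a ha haY => inf_eq_bot_of_pgroups (p := 3) (r := 2) (by norm_num) h.isPGroup hY3 ha haY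
  have hcX : Nat.card ↥((X.subgroupOf N).map π) = 9 := by
    rw [hπ, card_map_quot hXY]
    have h1 := Subgroup.relIndex_mul_relIndex ⊥ Y X bot_le hYX
    rw [Subgroup.relIndex_bot_left, Subgroup.relIndex_bot_left, hcard, mul_comm] at h1
    exact Nat.eq_of_mul_eq_mul_right Nat.card_pos h1
  have hcA : Nat.card ↥((A.subgroupOf N).map π) = 8 := by
    rw [hπ, card_map_quot hAY, ← Subgroup.inf_relIndex_right]
    have h1 : Y ⊓ A = ⊥ := by
      rw [eq_bot_iff]
      intro x hx
      exact mem_bot.mpr (hAY1 x hx.2 hx.1)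
    rw [h1, Subgroup.relIndex_bot_left, h.card]
  have hzN : z ∈ N := hAY h.mem
  have hq : Q8 ((A.subgroupOf N).map π) (π ⟨z, hzN⟩) := by
    refine ⟨hcA, ⟨⟨z, hzN⟩, h.mem, rfl⟩, ?_, ?_⟩
    · intro hc
      exact h.ne (hAY1 z h.mem ((hmem hzN).mp hc))
    · rintro _ ⟨a, ha, rfl⟩
      rcases h.cases a ha with h1 | h1 | h1
      · left
        have : a = 1 := Subtype.ext h1
        rw [this, map_one]
      · right; left
        have : a = ⟨z, hzN⟩ := Subtype.ext h1
        rw [this]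
      · right; right
        rw [← map_mul]
        congr 1
        exact Subtype.ext h1
  have hnm : ∀ {K : Subgroup G} {k : G} (hk : k ∈ N) (_ : k ∈ normalizer (K : Set G)),
      π ⟨k, hk⟩ ∈ normalizer (((K.subgroupOf N).map π : Subgroup _) : Set (↥N ⧸ Y.subgroupOf N)) := by
    intro K k hk hkK
    apply mem_normalizer_of_map_conj_le
    rintro _ ⟨_, ⟨x, hx, rfl⟩, rfl⟩
    refine ⟨⟨k, hk⟩ * x * ⟨k, hk⟩⁻¹, ?_, ?_⟩
    · exact (mem_normalizer_iff.mp hkK _).mp hx
    · simp only [map_mul, map_inv, MulEquiv.coe_toMonoidHom, MulAut.conj_apply]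
  obtain ⟨_, ⟨a, ha, rfl⟩, h1, h2⟩ := hq.six (X := (X.subgroupOf N).map π) (b := π ⟨b, hbY⟩) hcX (by
      rintro _ ⟨a, ha, rfl⟩
      exact hnm a.2 (hAX ha)) (by
      rintro _ ⟨x, hx, rfl⟩
      rw [eq_inv_iff_mul_eq_one]
      exact (hmem (x := z * (x : G) * z⁻¹ * x) (mul_mem (mul_mem (mul_mem hzN x.2) (inv_mem hzN)) x.2)).mpr (hzi x hx))
    (hnm hbY hbX) (by
      rintro _ ⟨x, hx, rfl⟩
      rw [eq_inv_iff_mul_eq_one]
      exact (hmem (x := (b * b) * (x : G) * (b * b)⁻¹ * x) (mul_mem (mul_mem (mul_mem (mul_mem hbY hbY) x.2)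
        (inv_mem (mul_mem hbY hbY))) x.2)).mpr (hbi x hx))
  have haA : (a : G) ∈ A := ha
  refine ⟨a, haA, ?_, ?_⟩
  · have h3 : ((a : G) * a) * z⁻¹ ∈ Y := by
      apply (hmem (mul_mem (mul_mem a.2 a.2) (inv_mem hzN))).mp
      have h4 : π a * π a * (π ⟨z, hzN⟩)⁻¹ = 1 := by rw [h1, mul_inv_cancel]
      exact h4
    have h4 := hAY1 _ (mul_mem (mul_mem haA haA) (inv_mem h.mem)) h3
    exact mul_inv_eq_one.mp h4
  · intro x hx
    have hxN : x ∈ N := hXY hx
    have h3 := h2 (π ⟨x, hxN⟩) ⟨⟨x, hxN⟩, hx, rfl⟩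
    have hgN : (a : G)⁻¹ * b ∈ N := mul_mem (inv_mem a.2) hbY
    have h4 : ⁅x, (a : G)⁻¹ * b⁆ ∈ N := by
      rw [commutatorElement_def]
      exact mul_mem (mul_mem (mul_mem hxN hgN) (inv_mem hxN)) (inv_mem hgN)
    apply (hmem h4).mp
    have h5 : ⁅π ⟨x, hxN⟩, (π a)⁻¹ * π ⟨b, hbY⟩⁆ = 1 := by
      rw [commutatorElement_eq_one_iff_mul_comm]
      exact h3.symm
    exact h5

end Cfsg.Agent.Lib.BBPair
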