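import Cfsg.Agent.Lib.BBPair6

/-!
# Pairs of subnormal Baumann blocks (helper78): the exceptional block for `p = 3`
-/

set_option autoImplicit false
set_option linter.unusedSectionVars false

namespace Cfsg.Agent.Lib.BBPair

open Subgroup Cfsg Cfsg.Agent.Lib.LocBase Cfsg.Agent.Lib.PReduced Cfsg.Agent.Lib.BBlock
open scoped commutatorElement

universe u
variable {G : Type u} [Group G] [Finite G]

theorem le_relIndex {p : ℕ} [hp : Fact p.Prime] {K L : Subgroup G} (hK : K ≤ L) (hne : K ≠ L) (hL : IsPGroup p L) :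
    p ≤ K.relIndex L := by
  have h1 : K.relIndex L ∣ Nat.card L := Subgroup.relIndex_dvd_card K L
  obtain ⟨n, hn⟩ := (IsPGroup.iff_card).mp hL
  rw [hn] at h1
  obtain ⟨j, _, hj⟩ := (Nat.dvd_prime_pow hp.out).mp h1
  rw [hj]
  have hj0 : j ≠ 0 := by
    rintro rfl
    rw [pow_zero, Subgroup.relIndex_eq_one] at hj
    exact hne (le_antisymm hK hj)
  calc p = p ^ 1 := (pow_one p).symm
    _ ≤ p ^ j := Nat.pow_le_pow_right hp.out.pos (Nat.one_le_iff_ne_zero.mpr hj0)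

/-- a `3`-element acts quadratically on a section of order at most 9 -/
theorem quad {X Y : Subgroup G} {b : G} (hYX : Y ≤ X) (hXY : X ≤ normalizer (Y : Set G)) (hX : IsPGroup 3 X)
    (hidx : Y.relIndex X ≤ 9) (hb : IsPGroup 3 (zpowers b)) (hbX : b ∈ normalizer (X : Set G))
    (hbY : b ∈ normalizer (Y : Set G)) : ⁅⁅X, zpowers b⁆, zpowers b⁆ ≤ Y := by
  have hbX' : zpowers b ≤ normalizer (X : Set G) := by rw [zpowers_le]; exact hbX
  have hbY' : zpowers b ≤ normalizer (Y : Set G) := by rw [zpowers_le]; exact hbY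
  set P := X ⊔ zpowers b with hP
  have hPp : IsPGroup 3 P := isPGroup_sup hX hb hbX'
  have hPX : P ≤ normalizer (X : Set G) := sup_le le_normalizer hbX'
  have hPY : P ≤ normalizer (Y : Set G) := sup_le hXY hbY'
  have hXP : X ≤ P := le_sup_left
  set X1 := ⁅X, P⁆ ⊔ Y with hX1
  have h1 : X1 ≤ X := sup_le (commutator_le_left_of_le hPX) hYX
  have hP1 : P ≤ normalizer (X1 : Set G) := le_normalizer_sup (le_normalizer_commutator hPX le_normalizer) hPY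
  set X2 := ⁅X1, P⁆ ⊔ Y with hX2
  have h2 : X2 ≤ X1 := sup_le (commutator_le_left_of_le hP1) le_sup_right
  have key : X2 ≤ Y := by
    by_contra hcon
    have n1 : X1 ≠ X := by
      intro he
      have h3 := le_of_le_commutator_sup hPp hXP hPY he.ge
      exact hcon ((h2.trans h1).trans h3)
    have n2 : X2 ≠ X1 := by
      intro he
      have h3 := le_of_le_commutator_sup hPp (h1.trans hXP) hPY he.ge
      exact hcon (h2.trans h3)
    have n3 : Y ≠ X2 := fun he => hcon he.ge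
    have i1 := le_relIndex h1 n1 hX
    have i2 := le_relIndex h2 n2 (hX.to_le h1)
    have i3 := le_relIndex (le_sup_right : Y ≤ X2) n3 (hX.to_le (h2.trans h1))
    have e1 := Subgroup.relIndex_mul_relIndex Y X2 X1 le_sup_right h2
    have e2 := Subgroup.relIndex_mul_relIndex Y X1 X le_sup_right h1
    have i4 : 9 ≤ Y.relIndex X1 := by
      rw [← e1]
      calc 9 = 3 * 3 := by norm_num
        _ ≤ _ := Nat.mul_le_mul i3 i2
    have i5 : 27 ≤ Y.relIndex X := by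
      rw [← e2]
      calc 27 = 9 * 3 := by norm_num
        _ ≤ _ := Nat.mul_le_mul i4 i1
    omega
  refine le_trans ?_ key
  refine le_trans ?_ (le_sup_left : ⁅X1, P⁆ ≤ X2)
  refine commutator_mono ?_ le_sup_right
  exact (commutator_mono le_rfl le_sup_right).trans le_sup_left

/-- `Z_E` -/
abbrev ZE (E : Subgroup G) : Subgroup G := OZ 3 (pCoreOf 3 E) ⊓ centralizer (E : Set G)

/-- the data of an exceptional solvable block -/
structure S3x (E : Subgroup G) (z : G) : Prop where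
  exc : SB.Exc 3 E
  com : ⁅pCoreOf 3 E, pCoreOf 3 E⁆ ≤ ZE E
  cardQ : Nat.card ↥(pCoreOf 3 E) = 9 * Nat.card ↥(OZ 3 (pCoreOf 3 E))
  cardO : Nat.card ↥(OZ 3 (pCoreOf 3 E)) = 9 * Nat.card ↥(ZE E)
  cardZ : Nat.card ↥(ZE E) = 3
  inv : ∀ x ∈ pCoreOf 3 E, z * x * z⁻¹ * x ∈ OZ 3 (pCoreOf 3 E)
  b : ∃ b ∈ normalizer (E : Set G), IsPGroup 3 (zpowers b) ∧
    ¬ ⁅⁅pCoreOf 3 E, zpowers b⁆, zpowers b⁆ ≤ ZE E

theorem O_mem_conj (g : G) {o : G} (ho : o ∈ pCore 3 G) : g * o * g⁻¹ ∈ pCore 3 G :=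
  (pCore_normal 3 G).conj_mem o ho g

theorem V_mem_conj (g : G) {v : G} (hv : v ∈ OZ 3 (pCore 3 G)) : g * v * g⁻¹ ∈ OZ 3 (pCore 3 G) :=
  conj_mem_of_le_normalizer (V_norm (p := 3) (⊤ : Subgroup G)) (mem_top g) hv

theorem V_comm {v o : G} (hv : v ∈ OZ 3 (pCore 3 G)) (ho : o ∈ pCore 3 G) : v * o = o * v :=
  mem_centralizer_iff.mp (O_cent (p := 3) ho) v hv

theorem V_cube {v : G} (hv : v ∈ OZ 3 (pCore 3 G)) : v * v * v = 1 := by
  have := (mem_OZ.mp hv).2.2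
  rw [pow_succ, pow_two] at this
  exact this

theorem pow_comm_mem {u : G} {P X : Subgroup G} (hu : u ∈ normalizer (X : Set G)) (h : ∀ o ∈ P, ⁅u, o⁆ ∈ X) :
    ∀ k : ℕ, ∀ o ∈ P, ⁅u ^ k, o⁆ ∈ X := by
  intro k
  induction k with
  | zero => intro o _; simp
  | succ k ih =>
    intro o ho
    rw [pow_succ, commutatorElement_mul_left_eq_conj_mul]
    exact mul_mem ((mem_normalizer_iff.mp (pow_mem hu k) _).mp (h o ho)) (ih o ho)

/-- elements trivial on the chain `1 ≤ V ≤ Y ≤ O_3(G)` which lie in the preimage of `O_2(G / O_3(G))` -/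
theorem mem_O_of_chain (hcp : centralizer (pCore 3 G : Set G) ≤ pCore 3 G) {Y : Subgroup G} (hYO : Y ≤ pCore 3 G)
    (hVY : OZ 3 (pCore 3 G) ≤ Y) {u : G} (huY : u ∈ normalizer (Y : Set G)) (huV : ∀ v ∈ OZ 3 (pCore 3 G), u * v = v * u)
    (huYV : ∀ y ∈ Y, ⁅u, y⁆ ∈ OZ 3 (pCore 3 G)) (huO : ∀ o ∈ pCore 3 G, ⁅u, o⁆ ∈ Y) {n : ℕ}
    (hu2 : u ^ 2 ^ n ∈ pCore 3 G) : u ∈ pCore 3 G := by
  have ho : orderOf u ≠ 0 := (orderOf_pos _).ne'
  obtain ⟨a, m, hm, ho2⟩ := Nat.exists_eq_pow_mul_and_not_dvd ho 3 (by norm_num)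
  have hVn : u ∈ normalizer (OZ 3 (pCore 3 G) : Set G) := V_norm (p := 3) ⊤ (mem_top u)
  -- the `3'`-part
  have h1 : u ^ 3 ^ a = 1 := by
    have hc : (orderOf (u ^ 3 ^ a)).Coprime 3 := by
      have h2 : orderOf (u ^ 3 ^ a) ∣ m := by
        apply orderOf_dvd_of_pow_eq_one
        rw [← pow_mul, ← ho2, pow_orderOf_eq_one]
      exact Nat.Coprime.coprime_dvd_left h2 ((Nat.Prime.coprime_iff_not_dvd Nat.prime_three).mpr hm).symm
    have hV : ∀ v ∈ OZ 3 (pCore 3 G), u ^ 3 ^ a * v = v * u ^ 3 ^ a := by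
      intro v hv
      have : Commute u v := huV v hv
      exact (this.pow_left _).eq
    have hY : ∀ y ∈ Y, u ^ 3 ^ a * y = y * u ^ 3 ^ a := by
      intro y hy
      have h3 := pow_comm_mem hVn huYV (3 ^ a) y hy
      have h4 : ⁅u ^ 3 ^ a, ⁅u ^ 3 ^ a, y⁆⁆ ∈ (⊥ : Subgroup G) := by
        rw [mem_bot, commutatorElement_eq_one_iff_mul_comm]
        exact hV _ h3
      have h5 := commutator_mem_of_coprime (isPGroup_pCore 3 G) hc (V_le (p := 3) h3)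
        (bot_norm ⊤ (mem_top _)) (bot_norm ⊤ (mem_top _)) h4
      rw [mem_bot, commutatorElement_eq_one_iff_mul_comm] at h5
      exact h5
    exact triv_of_chain hcp hc hYO (pow_comm_mem huY huO (3 ^ a)) hY
  have h2 : (orderOf u).Coprime 2 := by
    have h3 : orderOf u ∣ 3 ^ a := orderOf_dvd_of_pow_eq_one h1
    exact Nat.Coprime.coprime_dvd_left h3 (Nat.Coprime.pow_left a (by norm_num))
  exact mem_of_coprime_of_pow_mem h2 hu2

/-- the preimage of `O_2(G / O_3(G))` -/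
def P2 (G : Type u) [Group G] [Finite G] : Subgroup G :=
  (pCore 2 (G ⧸ pCore 3 G)).comap (QuotientGroup.mk' (pCore 3 G))

theorem P2_conj {g : G} (hg : g ∈ P2 G) (k : G) : k * g * k⁻¹ ∈ P2 G := by
  have h1 : (P2 G).Normal := (pCore_normal 2 (G ⧸ pCore 3 G)).comap _
  exact h1.conj_mem g hg k

theorem P2_pow {g : G} (hg : g ∈ P2 G) : ∃ n : ℕ, g ^ 2 ^ n ∈ pCore 3 G := by
  obtain ⟨n, hn⟩ := isPGroup_pCore 2 (G ⧸ pCore 3 G) ⟨QuotientGroup.mk' (pCore 3 G) g, hg⟩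
  refine ⟨n, ?_⟩
  have h1 : (QuotientGroup.mk' (pCore 3 G) g) ^ 2 ^ n = 1 := congrArg Subtype.val hn
  rw [← map_pow, QuotientGroup.mk'_apply, QuotientGroup.eq_one_iff] at h1
  exact h1

theorem V_conj {v o : G} (hv : v ∈ OZ 3 (pCore 3 G)) (ho : o ∈ pCore 3 G) : v * o * v⁻¹ = o := by
  rw [V_comm hv ho]; group

namespace S3x

variable {E : Subgroup G} {z : G}

section one
variable (h : SB 3 E)
include h

theorem O_Q : pCore 3 G ≤ normalizer (pCoreOf 3 E : Set G) := h.O_norm.trans (normalizer_le_normalizer_pCoreOf 3 E)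

theorem O_Om : pCore 3 G ≤ normalizer (OZ 3 (pCoreOf 3 E) : Set G) := (O_Q h).trans (normalizer_le_normalizer_OZ 3 _)

theorem O_Z : pCore 3 G ≤ normalizer (ZE E : Set G) :=
  le_normalizer_inf (O_Om h) (le_normalizer_centralizer h.O_norm)

theorem Y_le_O : pCoreOf 3 E ⊔ OZ 3 (pCore 3 G) ≤ pCore 3 G := sup_le h.Q_le V_le

theorem mem_Y {y : G} (hy : y ∈ pCoreOf 3 E ⊔ OZ 3 (pCore 3 G)) :
    ∃ q ∈ pCoreOf 3 E, ∃ v ∈ OZ 3 (pCore 3 G), y = q * v :=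
  exists_mul_of_mem_sup_of_le (V_le.trans (O_Q h)) hy

variable (x : S3x E z)
include x

theorem Z_bot : ⁅ZE E, pCore 3 G⁆ = ⊥ := by
  have hle : ⁅ZE E, pCore 3 G⁆ ≤ ZE E := commutator_le_left_of_le (O_Z h)
  have hZO : ZE E ≤ pCore 3 G := inf_le_left.trans ((OZ_le _).trans h.Q_le)
  by_contra hne
  have h1 : Nat.card ↥(⁅ZE E, pCore 3 G⁆ : Subgroup G) ∣ Nat.card ↥(ZE E) := Subgroup.card_dvd_of_le hle
  rw [x.cardZ] at h1
  rcases (Nat.dvd_prime Nat.prime_three).mp h1 with h2 | h2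
  · exact hne (Subgroup.card_eq_one.mp h2)
  · have h3 : ⁅ZE E, pCore 3 G⁆ = ZE E := Subgroup.eq_of_le_of_card_ge hle (by rw [h2, x.cardZ])
    have h4 := le_of_le_commutator_sup (isPGroup_pCore 3 G) hZO (bot_norm _) (h3.ge.trans le_sup_left)
    apply hne
    rw [h3]
    exact le_bot_iff.mp h4

theorem Z_V : ZE E ≤ OZ 3 (pCore 3 G) := by
  intro c hc
  have hZO : ZE E ≤ pCore 3 G := inf_le_left.trans ((OZ_le _).trans h.Q_le)
  exact mem_OZ.mpr ⟨hZO hc, commutator_eq_bot_iff_le_centralizer.mp (Z_bot h x) hc, (mem_OZ.mp hc.1).2.2⟩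

theorem Om_V : OZ 3 (pCoreOf 3 E) ≤ OZ 3 (pCore 3 G) := by
  rw [← h.OZ_eq]
  exact sup_le h.WE_le_V (Z_V h x)

omit x in
theorem Q_V {a : G} (ha : a ∈ pCoreOf 3 E) (hv : a ∈ OZ 3 (pCore 3 G)) : a ∈ OZ 3 (pCoreOf 3 E) :=
  mem_OZ.mpr ⟨ha, centralizer_le h.Q_le (mem_OZ.mp hv).2.1, (mem_OZ.mp hv).2.2⟩

theorem comm_QO : ⁅pCoreOf 3 E, pCore 3 G⁆ ≤ OZ 3 (pCoreOf 3 E) := by
  have hEO : E ≤ normalizer (OZ 3 (pCoreOf 3 E) : Set G) :=
    (le_normalizer_pCoreOf 3 E).trans (normalizer_le_normalizer_OZ 3 _)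
  have h1 : ⁅pCoreOf 3 E, pCore 3 G⁆ ≤ pCoreOf 3 E := commutator_le_left_of_le (O_Q h)
  have hn : E ≤ normalizer ((⁅pCoreOf 3 E, pCore 3 G⁆ ⊔ OZ 3 (pCoreOf 3 E) : Subgroup G) : Set G) :=
    le_normalizer_sup (le_normalizer_commutator (le_normalizer_pCoreOf 3 E) (pCore_norm E)) hEO
  rcases x.exc.irr _ le_sup_right (sup_le h1 (OZ_le _)) hn with h2 | h2
  · exact le_sup_left.trans h2.le
  · exfalso
    have h3 := le_of_le_commutator_sup (isPGroup_pCore 3 G) h.Q_le (O_Om h) h2.ge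
    apply x.exc.nab
    rw [commutator_eq_bot_iff_le_centralizer]
    exact (h3.trans (elem_iff.mp (elem_OZ 3 _)).1).trans (centralizer_le h3)

end one

/-- a hypothetical element contradicting Lemma X -/
structure GX (E : Subgroup G) (g : G) : Prop where
  P : g ∈ P2 G
  V : ∀ v ∈ OZ 3 (pCore 3 G), g * v = v * g
  O : ∀ o ∈ pCore 3 G, ⁅g, o⁆ ∈ pCoreOf 3 E ⊔ OZ 3 (pCore 3 G)
  i : ∀ a ∈ pCoreOf 3 E, g * a * g⁻¹ * a ∈ OZ 3 (pCore 3 G)

section two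
variable {g : G} (h : SB 3 E) (x : S3x E z) (y : GX E g)
include h x y

theorem star : ∀ a ∈ pCoreOf 3 E, ∀ o ∈ pCore 3 G, ⁅a, o⁆ ∈ ZE E := by
  intro a ha o ho
  have haO := h.Q_le ha
  set c := ⁅a, o⁆ with hc
  have hcΩ : c ∈ OZ 3 (pCoreOf 3 E) := comm_QO h x (commutator_mem_commutator ha ho)
  have hcV := Om_V h x hcΩ
  obtain ⟨q, hq, v', hv', hd⟩ := mem_Y h (y.O o ho)
  have hqO := h.Q_le hq
  set v := g * a * g⁻¹ * a with hv
  have hvV : v ∈ OZ 3 (pCore 3 G) := y.i a ha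
  have e1 : g * a * g⁻¹ = v * a⁻¹ := by rw [hv]; group
  have e2 : g * o * g⁻¹ = q * v' * o := by rw [← hd, commutatorElement_def]; group
  have e3 : g * c * g⁻¹ = c := by rw [y.V c hcV]; group
  have e4 : g * c * g⁻¹ = ⁅v * a⁻¹, q * v' * o⁆ := by
    rw [← e1, ← e2, hc]
    simp only [commutatorElement_def]; group
  have hqo : q * v' * o = v' * (q * o) := by rw [← V_comm hv' hqO]; group
  have e5 : ⁅v * a⁻¹, q * v' * o⁆ = ⁅a⁻¹, q * o⁆ := by
    have k1 : ⁅v * a⁻¹, q * v' * o⁆ = v * (a⁻¹ * (q * v' * o) * a) * v⁻¹ * (q * v' * o)⁻¹ := by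
      simp only [commutatorElement_def]; group
    have hm : a⁻¹ * (q * v' * o) * a ∈ pCore 3 G :=
      mul_mem (mul_mem (inv_mem haO) (mul_mem (mul_mem hqO (V_le (p := 3) hv')) ho)) haO
    rw [k1, V_conj hvV hm, hqo]
    have k2 : a⁻¹ * (v' * (q * o)) * a = v' * (a⁻¹ * (q * o) * a) := by
      have : a⁻¹ * v' = v' * a⁻¹ := (V_comm hv' (inv_mem haO)).symm
      calc a⁻¹ * (v' * (q * o)) * a = (a⁻¹ * v') * (q * o) * a := by group
        _ = v' * (a⁻¹ * (q * o) * a) := by rw [this]; group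
    have hm2 : ⁅a⁻¹, q * o⁆ ∈ pCore 3 G := by
      rw [commutatorElement_def]
      exact mul_mem (mul_mem (mul_mem (inv_mem haO) (mul_mem hqO ho)) (inv_mem (inv_mem haO))) (inv_mem (mul_mem hqO ho))
    rw [k2]
    calc v' * (a⁻¹ * (q * o) * a) * (v' * (q * o))⁻¹ = v' * ⁅a⁻¹, q * o⁆ * v'⁻¹ := by
          rw [commutatorElement_def]; group
      _ = ⁅a⁻¹, q * o⁆ := V_conj hv' hm2
  have e6 : ⁅a⁻¹, q * o⁆ = ⁅a⁻¹, q⁆ * (q * (a⁻¹ * c⁻¹ * a) * q⁻¹) := by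
    rw [hc]; simp only [commutatorElement_def]; group
  have e7 : a⁻¹ * c⁻¹ * a = c⁻¹ := by
    have := V_comm (inv_mem hcV) haO
    rw [mul_assoc, this]; group
  have e8 : q * c⁻¹ * q⁻¹ = c⁻¹ := by
    rw [← V_comm (inv_mem hcV) hqO]; group
  have e9 : c * c = ⁅a⁻¹, q⁆ := by
    have k1 : c = ⁅a⁻¹, q⁆ * c⁻¹ := by
      calc c = g * c * g⁻¹ := e3.symm
        _ = ⁅a⁻¹, q⁆ * c⁻¹ := by rw [e4, e5, e6, e7, e8]
    exact mul_eq_of_eq_mul_inv k1
  have h1 : c * c ∈ ZE E := by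
    rw [e9]
    exact x.com (commutator_mem_commutator (inv_mem ha) hq)
  have e10 : c = (c * c) * (c * c) := by
    calc c = (c * c * c) * c := by rw [V_cube hcV, one_mul]
      _ = (c * c) * (c * c) := by group
  rw [e10]
  exact mul_mem h1 h1

theorem star' : ∀ a ∈ pCoreOf 3 E ⊔ OZ 3 (pCore 3 G), ∀ o ∈ pCore 3 G, ⁅a, o⁆ ∈ ZE E := by
  intro a ha o ho
  obtain ⟨q, hq, v, hv, rfl⟩ := mem_Y h ha
  have h1 : ⁅v, o⁆ = 1 := by rw [commutatorElement_eq_one_iff_mul_comm]; exact V_comm hv ho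
  rw [commutatorElement_mul_left_eq_conj_mul, h1, mul_one, mul_inv_cancel, one_mul]
  exact star h x y q hq o ho

theorem inv' : ∀ a ∈ pCoreOf 3 E ⊔ OZ 3 (pCore 3 G), g * a * g⁻¹ * a ∈ OZ 3 (pCore 3 G) := by
  intro a ha
  obtain ⟨q, hq, v, hv, rfl⟩ := mem_Y h ha
  have h1 : g * (q * v) * g⁻¹ * (q * v) = (g * q * g⁻¹ * q) * v * v := by
    have e1 : g * v * g⁻¹ = v := by rw [y.V v hv]; group
    have e2 : v * q = q * v := V_comm hv (h.Q_le hq)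
    calc g * (q * v) * g⁻¹ * (q * v) = (g * q * g⁻¹) * (g * v * g⁻¹) * q * v := by group
      _ = (g * q * g⁻¹) * (v * q) * v := by rw [e1]; group
      _ = _ := by rw [e2]; group
  rw [h1]
  exact mul_mem (mul_mem (y.i q hq) hv) hv

theorem exists_I : ∃ I : Subgroup G, ∀ a, a ∈ I ↔ a ∈ pCoreOf 3 E ⊔ OZ 3 (pCore 3 G) ∧ g * a * g⁻¹ * a ∈ ZE E := by
  have hYO := Y_le_O h
  have hZV := Z_V h x
  refine ⟨{ carrier := {a | a ∈ pCoreOf 3 E ⊔ OZ 3 (pCore 3 G) ∧ g * a * g⁻¹ * a ∈ ZE E}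
            one_mem' := ⟨Subgroup.one_mem _, by simp⟩
            mul_mem' := ?_
            inv_mem' := ?_ }, fun a => Iff.rfl⟩
  · rintro a b ⟨ha, ha2⟩ ⟨hb, hb2⟩
    refine ⟨Subgroup.mul_mem _ ha hb, ?_⟩
    have hgb : g * b * g⁻¹ ∈ pCore 3 G := O_mem_conj g (hYO hb)
    have hgbY : g * b * g⁻¹ ∈ pCoreOf 3 E ⊔ OZ 3 (pCore 3 G) := by
      have e1 : g * b * g⁻¹ = (g * b * g⁻¹ * b) * b⁻¹ := by group
      rw [e1]
      exact Subgroup.mul_mem _ ((le_sup_right : OZ 3 (pCore 3 G) ≤ _) (inv' h x y b hb)) (Subgroup.inv_mem _ hb)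
    have h1 := star' h x y a⁻¹ (Subgroup.inv_mem _ ha)  (g * b * g⁻¹) hgb
    have e1 : g * (a * b) * g⁻¹ * (a * b) = (g * a * g⁻¹ * a) * (⁅a⁻¹, g * b * g⁻¹⁆ * (g * b * g⁻¹ * b)) := by
      simp only [commutatorElement_def]; group
    rw [e1]
    exact mul_mem ha2 (mul_mem h1 hb2)
  · rintro a ⟨ha, ha2⟩
    refine ⟨Subgroup.inv_mem _ ha, ?_⟩
    have e1 : g * a⁻¹ * g⁻¹ * a⁻¹ = a * (g * a * g⁻¹ * a)⁻¹ * a⁻¹ := by group
    rw [e1]
    have h1 : (g * a * g⁻¹ * a)⁻¹ ∈ ZE E := inv_mem ha2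
    have e2 : a * (g * a * g⁻¹ * a)⁻¹ * a⁻¹ = (g * a * g⁻¹ * a)⁻¹ := by
      rw [← V_comm (hZV h1) (hYO ha)]; group
    rw [e2]
    exact h1

end two

end S3x

end Cfsg.Agent.Lib.BBPair
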