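import Cfsg.Agent.Lib.BBPair7

/-!
# Pairs of subnormal Baumann blocks (helper78): Lemma X
-/

set_option autoImplicit false
set_option linter.unusedSectionVars false

namespace Cfsg.Agent.Lib.BBPair

open Subgroup Cfsg Cfsg.Agent.Lib.LocBase Cfsg.Agent.Lib.PReduced Cfsg.Agent.Lib.BBlock
open scoped commutatorElement

universe u
variable {G : Type u} [Group G] [Finite G]

namespace S3x

variable {E : Subgroup G} {z : G}

theorem k_Q {k : G} (hk : k ∈ normalizer (E : Set G)) : k ∈ normalizer (pCoreOf 3 E : Set G) :=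
  normalizer_le_normalizer_pCoreOf 3 E hk

theorem k_V (k : G) : k ∈ normalizer (OZ 3 (pCore 3 G) : Set G) := V_norm (p := 3) ⊤ (mem_top k)

theorem k_Om {k : G} (hk : k ∈ normalizer (E : Set G)) : k ∈ normalizer (OZ 3 (pCoreOf 3 E) : Set G) :=
  normalizer_le_normalizer_OZ 3 _ (k_Q hk)

theorem k_Y {k : G} (hk : k ∈ normalizer (E : Set G)) :
    k ∈ normalizer ((pCoreOf 3 E ⊔ OZ 3 (pCore 3 G) : Subgroup G) : Set G) :=
  le_normalizer_sup (normalizer_le_normalizer_pCoreOf 3 E) (V_norm _) hk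

theorem k_Z {k : G} (hk : k ∈ normalizer (E : Set G)) : k ∈ normalizer (ZE E : Set G) :=
  le_normalizer_inf ((normalizer_le_normalizer_pCoreOf 3 E).trans (normalizer_le_normalizer_OZ 3 _))
    (le_normalizer_centralizer le_rfl) hk

theorem GX.conj {g k : G} (y : GX E g) (hk : k ∈ normalizer (E : Set G)) : GX E (k * g * k⁻¹) := by
  refine ⟨P2_conj y.P k, ?_, ?_, ?_⟩
  · intro v hv
    have h1 : k⁻¹ * v * k ∈ OZ 3 (pCore 3 G) := by
      have := V_mem_conj k⁻¹ hv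
      rwa [inv_inv] at this
    calc k * g * k⁻¹ * v = k * (g * (k⁻¹ * v * k)) * k⁻¹ := by group
      _ = k * ((k⁻¹ * v * k) * g) * k⁻¹ := by rw [y.V _ h1]
      _ = v * (k * g * k⁻¹) := by group
  · intro o ho
    have h1 : k⁻¹ * o * k ∈ pCore 3 G := by
      have := O_mem_conj k⁻¹ ho
      rwa [inv_inv] at this
    have e1 : ⁅k * g * k⁻¹, o⁆ = k * ⁅g, k⁻¹ * o * k⁆ * k⁻¹ := by
      simp only [commutatorElement_def]; group
    rw [e1]
    exact (mem_normalizer_iff.mp (k_Y hk) _).mp (y.O _ h1)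
  · intro a ha
    have h1 : k⁻¹ * a * k ∈ pCoreOf 3 E := by
      have := (mem_normalizer_iff.mp (k_Q (inv_mem hk)) a).mp ha
      rwa [inv_inv] at this
    have e1 : k * g * k⁻¹ * a * (k * g * k⁻¹)⁻¹ * a = k * (g * (k⁻¹ * a * k) * g⁻¹ * (k⁻¹ * a * k)) * k⁻¹ := by group
    rw [e1]
    exact V_mem_conj k (y.i _ h1)

section two
variable {g g' : G} (h : SB 3 E) (x : S3x E z) (y : GX E g) (y' : GX E g')
include h x y

theorem g_Y : g ∈ normalizer ((pCoreOf 3 E ⊔ OZ 3 (pCore 3 G) : Subgroup G) : Set G) := by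
  apply mem_normalizer_of_map_conj_le
  rintro _ ⟨a, ha, rfl⟩
  have e1 : (MulAut.conj g).toMonoidHom a = (g * a * g⁻¹ * a) * a⁻¹ := by
    change g * a * g⁻¹ = _
    group
  rw [e1]
  exact Subgroup.mul_mem _ ((le_sup_right : OZ 3 (pCore 3 G) ≤ _) (inv' h x y a ha)) (Subgroup.inv_mem _ ha)

include y' in
theorem two_mem : g' * g⁻¹ ∈ pCore 3 G := by
  have hgY := g_Y h x y
  have hgY' := g_Y h x y'
  obtain ⟨n, hn⟩ := P2_pow (mul_mem y'.P (inv_mem y.P))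
  refine mem_O_of_chain h.cp (Y_le_O h) le_sup_right (mul_mem hgY' (inv_mem hgY)) ?_ ?_ ?_ hn
  · intro v hv
    have c1 : Commute g v := y.V v hv
    have c2 : Commute g' v := y'.V v hv
    exact (c2.mul_left c1.inv_left).eq
  · intro a ha
    have hb : g⁻¹ * a * g ∈ pCoreOf 3 E ⊔ OZ 3 (pCore 3 G) := by
      have := (mem_normalizer_iff.mp (inv_mem hgY) a).mp ha
      rwa [inv_inv] at this
    have h1 := inv' h x y _ hb
    have h2 := inv' h x y' _ hb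
    have e1 : ⁅g' * g⁻¹, a⁆ = (g' * (g⁻¹ * a * g) * g'⁻¹ * (g⁻¹ * a * g)) * (g * (g⁻¹ * a * g) * g⁻¹ * (g⁻¹ * a * g))⁻¹ := by
      simp only [commutatorElement_def]; group
    rw [e1]
    exact mul_mem h2 (inv_mem h1)
  · intro o ho
    have h1 := y.O o ho
    have h2 := y'.O o ho
    have e1 : ⁅g' * g⁻¹, o⁆ = g' * (g⁻¹ * ⁅g, o⁆⁻¹ * (g⁻¹)⁻¹) * g'⁻¹ * ⁅g', o⁆ := by
      simp only [commutatorElement_def]; group
    rw [e1]
    refine Subgroup.mul_mem _ ((mem_normalizer_iff.mp hgY' _).mp ?_) h2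
    exact (mem_normalizer_iff.mp (inv_mem hgY) _).mp (Subgroup.inv_mem _ h1)

theorem k_I {k : G} (hk : k ∈ normalizer (E : Set G)) {I : Subgroup G}
    (hI : ∀ a, a ∈ I ↔ a ∈ pCoreOf 3 E ⊔ OZ 3 (pCore 3 G) ∧ g * a * g⁻¹ * a ∈ ZE E) : k ∈ normalizer (I : Set G) := by
  apply mem_normalizer_of_map_conj_le
  rintro _ ⟨a, ha, rfl⟩
  change k * a * k⁻¹ ∈ I
  obtain ⟨ha1, ha2⟩ := (hI a).mp ha
  have hkY := k_Y hk
  have hkaY : k * a * k⁻¹ ∈ pCoreOf 3 E ⊔ OZ 3 (pCore 3 G) := (mem_normalizer_iff.mp hkY _).mp ha1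
  refine (hI _).mpr ⟨hkaY, ?_⟩
  have hu := two_mem h x y (y.conj hk)
  set u := k * g * k⁻¹ * g⁻¹ with hudef
  have hgaY : g * a * g⁻¹ ∈ pCoreOf 3 E ⊔ OZ 3 (pCore 3 G) := (mem_normalizer_iff.mp (g_Y h x y) _).mp ha1
  have hbY : k * (g * a * g⁻¹) * k⁻¹ ∈ pCoreOf 3 E ⊔ OZ 3 (pCore 3 G) := (mem_normalizer_iff.mp hkY _).mp hgaY
  have h1 := star' h x y _ hbY u⁻¹ (inv_mem hu)
  have e1 : g * (k * a * k⁻¹) * g⁻¹ * (k * a * k⁻¹) =
      ⁅k * (g * a * g⁻¹) * k⁻¹, u⁻¹⁆⁻¹ * (k * (g * a * g⁻¹ * a) * k⁻¹) := by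
    rw [hudef]; simp only [commutatorElement_def]; group
  rw [e1]
  exact mul_mem (inv_mem h1) ((mem_normalizer_iff.mp (k_Z hk) _).mp ha2)

/-- **Lemma X** -/
theorem lemX (hz : z ∈ E) : False := by
  obtain ⟨I, hI⟩ := exists_I h x y
  obtain ⟨b, hbE, hb3, hbq⟩ := x.b
  have hzE : z ∈ normalizer (E : Set G) := le_normalizer hz
  have hbI := k_I h x y hbE hI
  have hzI := k_I h x y hzE hI
  have hYO := Y_le_O h
  have hZV := Z_V h x
  have hOmV := Om_V h x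
  have hZQ : ZE E ≤ pCoreOf 3 E := inf_le_left.trans (OZ_le _)
  have hIO : I ≤ pCore 3 G := fun a ha => hYO ((hI a).mp ha).1
  -- `I ∩ V ≤ Z`
  have hIV : ∀ a ∈ I, a ∈ OZ 3 (pCore 3 G) → a ∈ ZE E := by
    intro a ha hv
    have h1 := ((hI a).mp ha).2
    have e1 : g * a * g⁻¹ * a = a * a := by rw [y.V a hv]; group
    rw [e1] at h1
    have e2 : a = (a * a) * (a * a) := by
      calc a = (a * a * a) * a := by rw [V_cube hv, one_mul]
        _ = (a * a) * (a * a) := by group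
    rw [e2]
    exact mul_mem h1 h1
  have hZI : ZE E ≤ I := by
    intro a ha
    have hv := hZV ha
    refine (hI a).mpr ⟨(le_sup_right : OZ 3 (pCore 3 G) ≤ _) hv, ?_⟩
    have e1 : g * a * g⁻¹ * a = a * a := by rw [y.V a hv]; group
    rw [e1]
    exact mul_mem ha ha
  -- `z` inverts `Y / V`
  have hzinv : ∀ a ∈ pCoreOf 3 E ⊔ OZ 3 (pCore 3 G), z * a * z⁻¹ * a ∈ OZ 3 (pCore 3 G) := by
    intro a ha
    obtain ⟨q, hq, v, hv, rfl⟩ := mem_Y h ha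
    have hzv : z * v * z⁻¹ ∈ OZ 3 (pCore 3 G) := V_mem_conj z hv
    have e1 : z * (q * v) * z⁻¹ * (q * v) = (z * q * z⁻¹) * ((z * v * z⁻¹) * q) * v := by group
    rw [e1, V_comm hzv (h.Q_le hq)]
    have e2 : (z * q * z⁻¹) * (q * (z * v * z⁻¹)) * v = (z * q * z⁻¹ * q) * (z * v * z⁻¹) * v := by group
    rw [e2]
    exact mul_mem (mul_mem (hOmV (x.inv q hq)) hzv) hv
  -- `I ≤ Q`
  have hIQ : I ≤ pCoreOf 3 E := by
    intro a ha
    have ha1 := ((hI a).mp ha).1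
    have hza : z * a * z⁻¹ ∈ I := (mem_normalizer_iff.mp hzI _).mp ha
    have hc : z * a * z⁻¹ * a ∈ ZE E := hIV _ (mul_mem hza ha) (hzinv a ha1)
    have h1 : ⁅a, z⁆ ∈ pCoreOf 3 E := h.comm_O (commutator_mem_commutator (hIO ha) hz)
    have e1 : a ^ 2 = ⁅a, z⁆ * (z * a * z⁻¹ * a) := by
      rw [pow_two, commutatorElement_def]; group
    have h2 : a ^ 2 ∈ pCoreOf 3 E := by
      rw [e1]
      exact mul_mem h1 (hZQ hc)
    exact mem_of_pow_mem_of_isPGroup (isPGroup_pCore 3 G) (hIO ha) (by norm_num) h2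
  -- `Q = I Ω`
  have hQI : ∀ q ∈ pCoreOf 3 E, ∃ i ∈ I, ∃ w ∈ OZ 3 (pCoreOf 3 E), q = i * w := by
    intro q hq
    have hv := y.i q hq
    set v := g * q * g⁻¹ * q with hvdef
    have hqv : q * v ∈ I := by
      refine (hI _).mpr ⟨Subgroup.mul_mem _ ((le_sup_left : pCoreOf 3 E ≤ _) hq) ((le_sup_right : OZ 3 (pCore 3 G) ≤ _) hv), ?_⟩
      have e1 : g * v * g⁻¹ = v := by rw [y.V v hv]; group
      have e2 : v * q = q * v := V_comm hv (h.Q_le hq)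
      have e3 : g * (q * v) * g⁻¹ * (q * v) = 1 := by
        calc g * (q * v) * g⁻¹ * (q * v) = (g * q * g⁻¹) * (g * v * g⁻¹) * q * v := by group
          _ = (g * q * g⁻¹) * (v * q) * v := by rw [e1]; group
          _ = (g * q * g⁻¹ * q) * v * v := by rw [e2]; group
          _ = v * v * v := by rw [← hvdef]
          _ = 1 := V_cube hv
      rw [e3]
      exact one_mem _
    have hvQ : v ∈ pCoreOf 3 E := by
      have e1 : v = q⁻¹ * (q * v) := by group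
      rw [e1]
      exact mul_mem (inv_mem hq) (hIQ hqv)
    exact ⟨q * v, hqv, v⁻¹, inv_mem (Q_V h hvQ hv), by group⟩
  -- orders
  have hQp : IsPGroup 3 ↥(pCoreOf 3 E) := isPGroup_pCoreOf 3 E
  have hcentQ : ∀ w ∈ OZ 3 (pCoreOf 3 E), ∀ q ∈ pCoreOf 3 E, w * q = q * w := fun w hw q hq =>
    V_comm (hOmV hw) (h.Q_le hq)
  have hidx1 : (ZE E).relIndex I ≤ 9 := by
    have e1 : ZE E = OZ 3 (pCoreOf 3 E) ⊓ I := by
      apply le_antisymm (le_inf inf_le_left hZI)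
      intro a ha
      exact hIV a ha.2 (hOmV ha.1)
    have h1 : (ZE E).relIndex I = (OZ 3 (pCoreOf 3 E)).relIndex I := by
      rw [e1, Subgroup.inf_relIndex_right]
    have h2 : (OZ 3 (pCoreOf 3 E)).relIndex (pCoreOf 3 E) = 9 := by
      have h3 := Subgroup.relIndex_mul_relIndex ⊥ (OZ 3 (pCoreOf 3 E)) (pCoreOf 3 E) bot_le (OZ_le _)
      rw [Subgroup.relIndex_bot_left, Subgroup.relIndex_bot_left, x.cardQ, mul_comm] at h3
      exact Nat.eq_of_mul_eq_mul_right Nat.card_pos h3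
    rw [h1, ← h2]
    exact Subgroup.relIndex_le_of_le_right hIQ (by rw [h2]; norm_num)
  have hidx2 : (ZE E).relIndex (OZ 3 (pCoreOf 3 E)) ≤ 9 := by
    have h3 := Subgroup.relIndex_mul_relIndex ⊥ (ZE E) (OZ 3 (pCoreOf 3 E)) bot_le inf_le_left
    rw [Subgroup.relIndex_bot_left, Subgroup.relIndex_bot_left, x.cardO, mul_comm] at h3
    exact (Nat.eq_of_mul_eq_mul_right Nat.card_pos h3).le
  have hOZ := O_Z h
  have q1 := quad hZI (hIO.trans hOZ) (hQp.to_le hIQ) hidx1 hb3 hbI (k_Z hbE)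
  have q2 := quad (Y := ZE E) (X := OZ 3 (pCoreOf 3 E)) inf_le_left (((OZ_le _).trans h.Q_le).trans hOZ) (hQp.to_le (OZ_le _)) hidx2
    hb3 (k_Om hbE) (k_Z hbE)
  apply hbq
  -- `[Q, b] ≤ [Ω, b] [I, b]`
  set B := zpowers b with hB
  have hBI : B ≤ normalizer (I : Set G) := by rw [hB, zpowers_le]; exact hbI
  have hBO : B ≤ normalizer (OZ 3 (pCoreOf 3 E) : Set G) := by rw [hB, zpowers_le]; exact k_Om hbE
  have r1 : ⁅I, B⁆ ≤ I := commutator_le_left_of_le hBI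
  have r2 : ⁅OZ 3 (pCoreOf 3 E), B⁆ ≤ OZ 3 (pCoreOf 3 E) := commutator_le_left_of_le hBO
  have s1 : ⁅pCoreOf 3 E, B⁆ ≤ ⁅OZ 3 (pCoreOf 3 E), B⁆ ⊔ ⁅I, B⁆ := by
    rw [commutator_le]
    intro q hq c hc
    obtain ⟨i, hi, w, hw, rfl⟩ := hQI q hq
    have hwc : ⁅w, c⁆ ∈ ⁅OZ 3 (pCoreOf 3 E), B⁆ := commutator_mem_commutator hw hc
    have hic : ⁅i, c⁆ ∈ ⁅I, B⁆ := commutator_mem_commutator hi hc
    rw [commutatorElement_mul_left_eq_conj_mul]
    have e1 : i * ⁅w, c⁆ * i⁻¹ = ⁅w, c⁆ := by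
      rw [← hcentQ _ (r2 hwc) i (hIQ hi)]; group
    rw [e1]
    exact Subgroup.mul_mem _ ((le_sup_left : ⁅OZ 3 (pCoreOf 3 E), B⁆ ≤ _) hwc) ((le_sup_right : ⁅I, B⁆ ≤ _) hic)
  rw [commutator_le]
  intro q hq c hc
  have hn : ⁅I, B⁆ ≤ normalizer ((⁅OZ 3 (pCoreOf 3 E), B⁆ : Subgroup G) : Set G) := by
    refine le_trans ?_ (centralizer_le_normalizer _)
    intro i hi
    rw [mem_centralizer_iff]
    intro w hw
    exact hcentQ w (r2 hw) i (hIQ (r1 hi))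
  obtain ⟨w, hw, i, hi, rfl⟩ := exists_mul_of_mem_sup_of_le hn (s1 hq)
  rw [commutatorElement_mul_left_eq_conj_mul]
  have h1 : ⁅i, c⁆ ∈ ZE E := q1 (commutator_mem_commutator hi hc)
  have h2 : ⁅w, c⁆ ∈ ZE E := q2 (commutator_mem_commutator hw hc)
  have e1 : w * ⁅i, c⁆ * w⁻¹ = ⁅i, c⁆ := by
    rw [hcentQ w (r2 hw) _ (hZQ h1)]; group
  rw [e1]
  exact mul_mem h1 h2

end two

end S3x

end Cfsg.Agent.Lib.BBPair
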