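import Cfsg.Agent.Lib.BBPair8
import Cfsg.Agent.Lib.SubgroupTools

/-!
# Pairs of subnormal Baumann blocks (helper78): the solvable blocks for `p = 3`
-/

set_option autoImplicit false
set_option linter.unusedSectionVars false

namespace Cfsg.Agent.Lib.BBPair

open Subgroup Cfsg Cfsg.Agent.Lib.LocBase Cfsg.Agent.Lib.PReduced Cfsg.Agent.Lib.BBlock
open scoped commutatorElement

universe u
variable {G : Type u} [Group G] [Finite G]

/-- `c` acts trivially on `X / Y` -/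
structure Tr (X Y : Subgroup G) (c : G) : Prop where
  nX : c ∈ normalizer (X : Set G)
  nY : c ∈ normalizer (Y : Set G)
  t : ∀ x ∈ X, ⁅c, x⁆ ∈ Y

theorem Tr.mul {X Y : Subgroup G} {c d : G} (hc : Tr X Y c) (hd : Tr X Y d) : Tr X Y (c * d) := by
  refine ⟨mul_mem hc.nX hd.nX, mul_mem hc.nY hd.nY, ?_⟩
  intro x hx
  rw [commutatorElement_mul_left_eq_conj_mul]
  exact mul_mem ((mem_normalizer_iff.mp hc.nY _).mp (hd.t x hx)) (hc.t x hx)

theorem Tr.inv {X Y : Subgroup G} {c : G} (hc : Tr X Y c) : Tr X Y c⁻¹ := by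
  refine ⟨inv_mem hc.nX, inv_mem hc.nY, ?_⟩
  intro x hx
  have e : ⁅c⁻¹, x⁆ = c⁻¹ * ⁅c, x⁆⁻¹ * (c⁻¹)⁻¹ := by
    simp only [commutatorElement_def]; group
  rw [e]
  exact (mem_normalizer_iff.mp (inv_mem hc.nY) _).mp (inv_mem (hc.t x hx))

theorem Tr.conj {X Y : Subgroup G} {c k : G} (hc : Tr X Y c) (hX : k ∈ normalizer (X : Set G))
    (hY : k ∈ normalizer (Y : Set G)) : Tr X Y (k * c * k⁻¹) := by
  refine ⟨mul_mem (mul_mem hX hc.nX) (inv_mem hX), mul_mem (mul_mem hY hc.nY) (inv_mem hY), ?_⟩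
  intro x hx
  have e : ⁅k * c * k⁻¹, x⁆ = k * ⁅c, k⁻¹ * x * k⁆ * k⁻¹ := by
    simp only [commutatorElement_def]; group
  rw [e]
  have h1 : k⁻¹ * x * k ∈ X := by
    have := (mem_normalizer_iff.mp (inv_mem hX) x).mp hx
    rwa [inv_inv] at this
  exact (mem_normalizer_iff.mp hY _).mp (hc.t _ h1)

namespace Q8

variable {A X Y : Subgroup G} {z : G}

theorem tr_eq_one (h : Q8 A z) (hX : IsPGroup 3 X) (hXY : ¬ X ≤ Y) (hzi : ∀ x ∈ X, z * x * z⁻¹ * x ∈ Y) {e : G}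
    (he : e ∈ A) (ht : Tr X Y e) : e = 1 := by
  by_contra he1
  have hz : Tr X Y z := by
    rcases h.pow_eq he he1 with h1 | h1
    · rw [← h1]; exact ht
    · rw [← h1]; exact ht.mul ht
  apply hXY
  intro x hx
  have h1 := hz.t x hx
  have e1 : x ^ 2 = (⁅z, x⁆)⁻¹ * (z * x * z⁻¹ * x) := by
    rw [pow_two, commutatorElement_def]; group
  have h2 : x ^ 2 ∈ Y := by
    rw [e1]; exact mul_mem (inv_mem h1) (hzi x hx)
  exact mem_of_pow_mem_of_isPGroup hX hx (by norm_num) h2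

/-- a commuting element cannot act as an element of order 4 -/
theorem no_comm (h : Q8 A z) (hX : IsPGroup 3 X) (hXY : ¬ X ≤ Y) (hzi : ∀ x ∈ X, z * x * z⁻¹ * x ∈ Y)
    (hAX : A ≤ normalizer (X : Set G)) (hAY : A ≤ normalizer (Y : Set G)) {a b : G} (ha : a ∈ A) (haz : a * a = z)
    (hb : ∀ c ∈ A, b * c = c * b) (ht : Tr X Y (a⁻¹ * b)) : False := by
  obtain ⟨c, hc, hac⟩ := h.exists_not_comm ha haz
  have h1 := ht.conj (hAX hc) (hAY hc)
  have e1 : c * (a⁻¹ * b) * c⁻¹ = (c * a * c⁻¹)⁻¹ * b := by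
    have : b * c⁻¹ = c⁻¹ * b := hb _ (inv_mem hc)
    calc c * (a⁻¹ * b) * c⁻¹ = c * a⁻¹ * (b * c⁻¹) := by group
      _ = _ := by rw [this]; group
  rw [e1] at h1
  have h2 := ht.mul h1.inv
  have e2 : a⁻¹ * b * ((c * a * c⁻¹)⁻¹ * b)⁻¹ = a⁻¹ * (c * a * c⁻¹) := by group
  rw [e2] at h2
  have h3 := h.tr_eq_one hX hXY hzi (mul_mem (inv_mem ha) (mul_mem (mul_mem hc ha) (inv_mem hc))) h2
  apply hac
  have h4 := inv_mul_eq_one.mp h3
  calc a * c = (c * a * c⁻¹) * c := by rw [← h4]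
    _ = c * a := by group

theorem exists_sq (h : Q8 A z) : ∃ a ∈ A, a * a = z := by
  obtain ⟨b, hb, h1, h2⟩ := exists_third (B := A) (by rw [h.card]; norm_num) 1 z
  rcases h.cases b hb with h3 | h3 | h3
  · exact absurd h3 h1
  · exact absurd h3 h2
  · exact ⟨b, hb, h3⟩

theorem cj' (h : Q8 A z) (g : G) : Q8 (cj g A) (g * z * g⁻¹) := by
  refine ⟨by rw [card_map_conj, h.card], ?_, ?_, ?_⟩
  · rw [mem_map_conj]
    have : g⁻¹ * (g * z * g⁻¹) * g = z := by group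
    rw [this]; exact h.mem
  · intro hc
    apply h.ne
    rw [mul_inv_eq_one] at hc
    exact mul_eq_left.mp hc
  · rintro _ ⟨a, ha, rfl⟩
    change g * a * g⁻¹ = 1 ∨ g * a * g⁻¹ = g * z * g⁻¹ ∨ g * a * g⁻¹ * (g * a * g⁻¹) = g * z * g⁻¹
    rcases h.cases a ha with h1 | h1 | h1
    · left; rw [h1]; group
    · right; left; rw [h1]
    · right; right; rw [← h1]; group

end Q8

theorem cZ (g : G) (E : Subgroup G) : ZE (cj g E) = cj g (ZE E) := by
  unfold ZE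
  rw [cQ, cO, cC, cI]

theorem Exc_cj {E : Subgroup G} (x : SB.Exc 3 E) (g : G) : SB.Exc 3 (cj g E) := by
  refine ⟨?_, ?_, ?_⟩
  · intro X hX1 hX2 hX3
    obtain ⟨Y, rfl⟩ := exists_cj g X
    rw [cQ, cO, map_conj_le_map_conj] at hX1
    rw [cQ, map_conj_le_map_conj] at hX2
    rw [cN, map_conj_le_map_conj] at hX3
    rw [cQ, cO, map_conj_inj, map_conj_inj]
    exact x.irr Y hX1 hX2 hX3
  · rw [cQ, cB]
    intro hb
    exact x.nab ((Subgroup.map_eq_bot_iff_of_injective _ (MulAut.conj g).injective).mp hb)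
  · rw [cQ, cB, cO, map_conj_le_map_conj]
    exact x.com

theorem S3x.map_conj {E : Subgroup G} {z : G} (x : S3x E z) (g : G) : S3x (cj g E) (g * z * g⁻¹) := by
  refine ⟨Exc_cj x.exc g, ?_, ?_, ?_, ?_, ?_, ?_⟩
  · rw [cQ, cB, cZ, map_conj_le_map_conj]; exact x.com
  · rw [cQ, cO, card_map_conj, card_map_conj]; exact x.cardQ
  · rw [cZ, cQ, cO, card_map_conj, card_map_conj]; exact x.cardO
  · rw [cZ, card_map_conj]; exact x.cardZ
  · rw [cQ, cO]
    rintro _ ⟨a, ha, rfl⟩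
    rw [mem_map_conj]
    have e1 : g⁻¹ * (g * z * g⁻¹ * (MulAut.conj g).toMonoidHom a * (g * z * g⁻¹)⁻¹ * (MulAut.conj g).toMonoidHom a) * g =
        z * a * z⁻¹ * a := by
      change g⁻¹ * (g * z * g⁻¹ * (g * a * g⁻¹) * (g * z * g⁻¹)⁻¹ * (g * a * g⁻¹)) * g = _
      group
    rw [e1]
    exact x.inv a ha
  · obtain ⟨b, h1, h2, h3⟩ := x.b
    refine ⟨g * b * g⁻¹, ?_, ?_, ?_⟩
    · rw [cN, mem_map_conj]
      have : g⁻¹ * (g * b * g⁻¹) * g = b := by group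
      rw [this]; exact h1
    · have e1 : zpowers (g * b * g⁻¹) = cj g (zpowers b) := by
        rw [cj, MonoidHom.map_zpowers]; rfl
      rw [e1]
      exact isPGroup_map_conj h2 g
    · have e1 : zpowers (g * b * g⁻¹) = cj g (zpowers b) := by
        rw [cj, MonoidHom.map_zpowers]; rfl
      rw [e1, cQ, cZ, cB, cB, map_conj_le_map_conj]
      exact h3

/-- the solvable blocks for `p = 3` -/
structure S3 (S E : Subgroup G) : Prop where
  sb : SB 3 E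
  cardE : Nat.card E = 8 * Nat.card ↥(pCoreOf 3 E)
  cardO : Nat.card ↥(OZ 3 (pCoreOf 3 E)) = 9 * Nat.card ↥(ZE E)
  z : ∃ z, Q8 (S ⊓ E) z ∧ (∀ w ∈ WE 3 E, z * w * z⁻¹ = w⁻¹) ∧ (pCoreOf 3 E = OZ 3 (pCoreOf 3 E) ∨ S3x E z)

namespace S3

variable {S E F : Subgroup G}

theorem map_conj (h : S3 S E) {s : G} (hs : s ∈ S) : S3 S (cj s E) := by
  obtain ⟨z, h1, h2, h3⟩ := h.z
  refine ⟨h.sb.map_conj s, ?_, ?_, s * z * s⁻¹, ?_, ?_, ?_⟩
  · rw [cQ, card_map_conj, card_map_conj, h.cardE]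
  · rw [cZ, cQ, cO, card_map_conj, card_map_conj, h.cardO]
  · have e1 : S ⊓ cj s E = cj s (S ⊓ E) := inf_map_conj hs
    rw [e1]
    exact h1.cj' s
  · rw [WE_map_conj]
    rintro _ ⟨a, ha, rfl⟩
    change s * z * s⁻¹ * (s * a * s⁻¹) * (s * z * s⁻¹)⁻¹ = (s * a * s⁻¹)⁻¹
    have h4 := h2 a ha
    calc s * z * s⁻¹ * (s * a * s⁻¹) * (s * z * s⁻¹)⁻¹ = s * (z * a * z⁻¹) * s⁻¹ := by group
      _ = s * a⁻¹ * s⁻¹ := by rw [h4]
      _ = _ := by group
  · rcases h3 with h3 | h3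
    · left; rw [cQ, cO, ← h3]
    · right; exact h3.map_conj s

theorem inv_one {K : Subgroup G} (hK : IsPGroup 3 K) {w : G} (hw : w ∈ K) (h : w = w⁻¹) : w = 1 := by
  apply eq_one_of_isPGroup_of_pow hK hw (n := 2) (by norm_num)
  rw [pow_two]
  nth_rw 2 [h]
  exact mul_inv_cancel w

theorem W_pgroup (h : S3 S E) : IsPGroup 3 ↥(WE 3 E) := (isPGroup_pCore 3 G).to_le (h.sb.WE_le_V.trans V_le)

theorem st (hS : IsSyl 2 S ⊤) (h : S3 S E) : ST 3 2 S 8 9 E := by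
  have h1 := gen_of (p := 3) (r := 2) (by norm_num) hS h.sb (i := 3) (by rw [h.cardE]; norm_num)
  refine ⟨h.sb, h1.2, by rw [h1.1]; norm_num, cardW_of (by norm_num) hS.pgroup h.sb h1.2 h.cardO, ?_⟩
  intro a ha ha1
  apply fpf_of (r := 2) (by norm_num) hS.pgroup h.sb h1.2 ha
  intro w hw hc
  obtain ⟨z, hz1, hz2, -⟩ := h.z
  have h3 : z * w = w * z := by
    rcases hz1.pow_eq ha ha1 with h4 | h4
    · rw [← h4]; exact hc
    · rw [← h4]
      have h5 : Commute a w := hc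
      exact (h5.mul_left h5).eq
  apply inv_one h.W_pgroup hw
  rw [← hz2 w hw, h3]; group

end S3

end Cfsg.Agent.Lib.BBPair
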