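import Cfsg.Agent.Lib.ThompsonJ
import Cfsg.Agent.Lib.PReduced
import Cfsg.Agent.Lib.LocMore
import Cfsg.Agent.Lib.PAct
import Cfsg.Prelude.Def_BaumannBlocks

/-!
# Blocks relative to the Baumann subgroup (helper47)
-/

set_option autoImplicit false
set_option linter.unusedSectionVars false

namespace Cfsg.Agent.Lib.BBlock

open Subgroup Cfsg Cfsg.Agent.Lib.LocBase Cfsg.Agent.Lib.PReduced
open scoped commutatorElement

universe u
variable {G : Type u} [Group G]

/-- `J(T)` -/
abbrev JT (p : ℕ) (T : Subgroup G) : Subgroup G := ThompsonJ.J (Cfsg.IsElementaryAbelian p) T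

/-- `Ω₁Z(J(T))` -/
abbrev ZJ (p : ℕ) (T : Subgroup G) : Subgroup G := omegaOne p (JT p T ⊓ centralizer (JT p T : Set G))

theorem ZJ_eq (p : ℕ) (T : Subgroup G) : omegaOne p (centerThompsonOf p T) = ZJ p T := by
  unfold centerThompsonOf
  rw [ThompsonJ.thompsonSubgroupOf_eq]

theorem bau_eq (p : ℕ) (T : Subgroup G) : baumannSubgroupOf p T = T ⊓ centralizer (ZJ p T : Set G) := by
  unfold baumannSubgroupOf
  rw [ZJ_eq]

theorem omegaOne_map_conj (p : ℕ) (A : Subgroup G) (g : G) :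
    (omegaOne p A).map (MulAut.conj g).toMonoidHom = omegaOne p (A.map (MulAut.conj g).toMonoidHom) := by
  unfold omegaOne
  rw [MonoidHom.map_closure]
  congr 1
  ext x
  constructor
  · rintro ⟨y, ⟨hy, hyp⟩, rfl⟩
    exact ⟨⟨y, hy, rfl⟩, by rw [← map_pow, hyp, map_one]⟩
  · rintro ⟨⟨y, hy, rfl⟩, hp⟩
    refine ⟨y, ⟨hy, ?_⟩, rfl⟩
    rw [← map_pow] at hp
    exact (MulEquiv.map_eq_one_iff (MulAut.conj g)).mp hp

theorem JT_map_conj (p : ℕ) (T : Subgroup G) (g : G) :
    (JT p T).map (MulAut.conj g).toMonoidHom = JT p (T.map (MulAut.conj g).toMonoidHom) :=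
  (ThompsonJ.J_map (MulAut.conj g).injective
    (fun A => ThompsonJ.elemAb_map_iff (f := (MulAut.conj g).toMonoidHom) (MulAut.conj g).injective A) T).symm

theorem ZJ_map_conj (p : ℕ) (T : Subgroup G) (g : G) :
    (ZJ p T).map (MulAut.conj g).toMonoidHom = ZJ p (T.map (MulAut.conj g).toMonoidHom) := by
  unfold ZJ
  rw [omegaOne_map_conj, Subgroup.map_inf_eq _ _ _ (MulAut.conj g).injective, map_conj_centralizer, JT_map_conj]

theorem bau_map_conj (p : ℕ) (T : Subgroup G) (g : G) :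
    (baumannSubgroupOf p T).map (MulAut.conj g).toMonoidHom = baumannSubgroupOf p (T.map (MulAut.conj g).toMonoidHom) := by
  rw [bau_eq, bau_eq, Subgroup.map_inf_eq _ _ _ (MulAut.conj g).injective, map_conj_centralizer, ZJ_map_conj]

theorem JT_le (p : ℕ) (T : Subgroup G) : JT p T ≤ T := ThompsonJ.J_le

theorem ZJ_le_JT (p : ℕ) (T : Subgroup G) : ZJ p T ≤ JT p T := by
  unfold ZJ omegaOne
  rw [closure_le]
  intro x hx
  exact hx.1.1

theorem JT_le_centralizer_ZJ (p : ℕ) (T : Subgroup G) : JT p T ≤ centralizer (ZJ p T : Set G) := by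
  rw [Subgroup.le_centralizer_iff]
  unfold ZJ omegaOne
  rw [closure_le]
  intro x hx
  exact hx.1.2

theorem JT_le_bau (p : ℕ) (T : Subgroup G) : JT p T ≤ baumannSubgroupOf p T := by
  rw [bau_eq]
  exact le_inf (JT_le p T) (JT_le_centralizer_ZJ p T)

theorem bau_le (p : ℕ) (T : Subgroup G) : baumannSubgroupOf p T ≤ T := by
  rw [bau_eq]; exact inf_le_left

variable [Finite G] {p : ℕ} [hp : Fact p.Prime]

theorem maxIn_nonempty (T : Subgroup G) : (ThompsonJ.maxIn (Cfsg.IsElementaryAbelian p) T).Nonempty :=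
  ThompsonJ.maxIn_nonempty ⟨⊥, bot_le, ThompsonJ.elemAb_bot⟩

/-- Thompson subgroups of two conjugate groups -/
theorem JT_eq_of_le {T : Subgroup G} {g : G} (h : JT p T ≤ T.map (MulAut.conj g).toMonoidHom) :
    JT p (T.map (MulAut.conj g).toMonoidHom) = JT p T := by
  symm
  apply Subgroup.eq_of_le_of_card_ge
  · apply sSup_le
    intro A hA
    apply le_sSup
    refine ⟨(ThompsonJ.le_J hA).trans h, hA.2.1, fun B hB hBe => ?_⟩
    have h1 := hA.2.2 (B.map (MulAut.conj g⁻¹).toMonoidHom) (by rw [map_conj_le_iff, inv_inv]; exact hB)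
      (ThompsonJ.elemAb_map _ hBe)
    rwa [card_map_conj] at h1
  · rw [← JT_map_conj, card_map_conj]

theorem bau_eq_of_le {T : Subgroup G} {g : G} (h : baumannSubgroupOf p T ≤ T.map (MulAut.conj g).toMonoidHom) :
    baumannSubgroupOf p (T.map (MulAut.conj g).toMonoidHom) = baumannSubgroupOf p T := by
  have h1 := JT_eq_of_le ((JT_le_bau p T).trans h)
  symm
  apply Subgroup.eq_of_le_of_card_ge
  · rw [bau_eq p (T.map (MulAut.conj g).toMonoidHom)]
    apply le_inf h
    unfold ZJ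
    rw [h1, bau_eq]
    exact inf_le_right
  · rw [← bau_map_conj, card_map_conj]

/-- `B(T)` in another Sylow subgroup -/
theorem bau_eq_of_syl {T S : Subgroup G} (hT : IsSyl p T ⊤) (hS : IsSyl p S ⊤) (h : baumannSubgroupOf p T ≤ S) :
    baumannSubgroupOf p S = baumannSubgroupOf p T := by
  obtain ⟨g, -, rfl⟩ := hS.conj hT
  exact bau_eq_of_le h

theorem normalizer_le_bau (T : Subgroup G) : normalizer (T : Set G) ≤ normalizer (baumannSubgroupOf p T : Set G) := by
  intro g hg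
  apply mem_normalizer_of_map_conj_eq
  rw [bau_map_conj, map_conj_eq_of_mem hg]

theorem pResidualOf_eq (E : Subgroup G) : pResidualOf p E = pRes p E := map_pResidual p E

/-- `[E, B] = E` gives `B ≤ N(E)` -/
theorem le_normalizer_of_commutator_eq {E B : Subgroup G} (h : ⁅E, B⁆ = E) : B ≤ normalizer (E : Set G) :=
  le_normalizer_iff_commutator_le_left.mpr h.le

/-- a normal subgroup of `EB` containing `B` contains `E = [E, B]` -/
theorem le_of_commutator_eq {E B N : Subgroup G} (h : ⁅E, B⁆ = E) (hB : B ≤ N) (hE : E ≤ normalizer (N : Set G)) : E ≤ N := by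
  rw [← h]
  exact (commutator_mono le_rfl hB).trans (le_normalizer_iff_commutator_le_right.mp hE)

theorem pRes_sup_le {E Q : Subgroup G} (hQ : IsPGroup p Q) (hn : Q ≤ normalizer (E : Set G)) : pRes p (E ⊔ Q) ≤ E := by
  apply pRes_le_of_pow_mem
  intro x hx
  obtain ⟨e, he, q, hq, rfl⟩ := exists_mul_of_mem_sup_of_le hn hx
  obtain ⟨k, hk⟩ := hQ ⟨q, hq⟩
  have hk' : q ^ p ^ k = 1 := by
    have := congrArg Subtype.val hk
    simpa using this
  refine ⟨k, ?_⟩
  have h1 := mul_pow_mem_coset he (hn hq) (p ^ k)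
  rwa [hk', inv_one, mul_one] at h1

theorem pRes_sup_eq {E Q : Subgroup G} (hE : pRes p E = E) (hQ : IsPGroup p Q) (hn : Q ≤ normalizer (E : Set G)) :
    pRes p (E ⊔ Q) = E :=
  le_antisymm (pRes_sup_le hQ hn) (hE.symm.le.trans (pRes_mono le_sup_left))

/-- normalizing `E` modulo a `p`-group `Q` normalizing `E` -/
theorem normalizes_of_sup {E Q K : Subgroup G} (hE : pRes p E = E) (hQ : IsPGroup p Q) (hn : Q ≤ normalizer (E : Set G))
    (hKQ : K ≤ normalizer (Q : Set G)) (hKE : ⁅K, E⁆ ≤ Q) : K ≤ normalizer (E : Set G) := by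
  have h1 : K ≤ normalizer ((E ⊔ Q : Subgroup G) : Set G) := by
    intro k hk
    apply mem_normalizer_of_map_conj_le
    rw [Subgroup.map_sup, map_conj_eq_of_mem (hKQ hk)]
    refine sup_le ?_ le_sup_right
    rintro _ ⟨e, he, rfl⟩
    have e1 : (MulAut.conj k).toMonoidHom e = ⁅k, e⁆ * e := by
      change k * e * k⁻¹ = _
      rw [commutatorElement_def]; group
    rw [e1]
    exact Subgroup.mul_mem _ ((le_sup_right : Q ≤ E ⊔ Q) (hKE (commutator_mem_commutator hk he)))
      ((le_sup_left : E ≤ E ⊔ Q) he)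
  have h2 := h1.trans (normalizer_le_normalizer_pRes p _)
  rwa [pRes_sup_eq hE hQ hn] at h2

/-- **S2983** -/
theorem normalizes {T E Q : Subgroup G} (hT : IsSyl p T ⊤) (hE1 : pRes p E = E) (hE2 : ⁅E, baumannSubgroupOf p T⁆ = E) 
    (hQ : IsPGroup p Q) (hBQ : baumannSubgroupOf p T ≤ normalizer (Q : Set G)) (hEQ : E ≤ normalizer (Q : Set G)) :
    Q ≤ normalizer (E : Set G) := by
  set B := baumannSubgroupOf p T with hB
  have hBp : IsPGroup p B := hT.pgroup.to_le (bau_le p T)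
  have hBE : B ≤ normalizer (E : Set G) := le_normalizer_of_commutator_eq hE2
  -- `Q` normalizes `B`
  have key : Q ≤ normalizer (B : Set G) := by
    obtain ⟨S, hS, hle⟩ := exists_isSyl_ge (H := ⊤) (isPGroup_sup hQ hBp hBQ) le_top
    have h1 := bau_eq_of_syl hT hS (le_sup_right.trans hle)
    rw [hB, ← h1]
    exact (le_sup_left.trans hle).trans (le_normalizer.trans (normalizer_le_bau S))
  by_contra hcon
  set Q₁ := Q ⊓ normalizer (E : Set G) with hQ₁
  have hlt : Q₁ < Q := lt_of_le_of_ne inf_le_left (fun e => hcon (by rw [← e]; exact inf_le_right))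
  have hlt2 := LocMore.lt_inf_normalizer hQ hlt
  set Q₂ := Q ⊓ normalizer (Q₁ : Set G) with hQ₂
  have hEN : E ≤ normalizer (E : Set G) := le_normalizer
  have hNN : ∀ K : Subgroup G, K ≤ normalizer (E : Set G) → K ≤ normalizer (Q : Set G) →
      K ≤ normalizer (Q₁ : Set G) ∧ K ≤ normalizer (Q₂ : Set G) := by
    intro K h1 h2
    have h3 : K ≤ normalizer (Q₁ : Set G) := le_normalizer_inf h2 (h1.trans le_normalizer)
    exact ⟨h3, le_normalizer_inf h2 (h3.trans le_normalizer)⟩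
  obtain ⟨hE1', hE2'⟩ := hNN E hEN hEQ
  obtain ⟨hB1, hB2⟩ := hNN B hBE hBQ
  have hQ₂N : Q₂ ≤ normalizer (Q₁ : Set G) := inf_le_right
  have hQ₁p : IsPGroup p Q₁ := hQ.to_le inf_le_left
  have h1 : ⁅Q₂, B⁆ ≤ Q₁ := by
    refine le_inf ?_ ?_
    · exact (commutator_mono inf_le_left le_rfl).trans (commutator_le_left_of_le hBQ)
    · exact (commutator_le_right_of_le ((inf_le_left : Q₂ ≤ Q).trans key)).trans hBE
  have h2 : ⁅⁅E, B⁆, Q₂⁆ ≤ Q₁ := by
    refine PAct.three_subgroups hE1' hB1 hQ₂N ?_ ?_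
    · rw [commutator_comm B]
      exact (commutator_mono h1 le_rfl).trans (commutator_le_left_of_le hE1')
    · exact (commutator_mono (commutator_le_left_of_le hE2') le_rfl).trans h1
  rw [hE2, commutator_comm] at h2
  have h3 := normalizes_of_sup hE1 hQ₁p inf_le_right hQ₂N h2
  exact absurd (le_inf inf_le_left h3 : Q₂ ≤ Q₁) (not_le_of_gt hlt2)

end Cfsg.Agent.Lib.BBlock
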