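import Cfsg.Agent.Lib.BBlockIrr

/-!
# First properties of blocks (helper47)
-/

set_option autoImplicit false
set_option linter.unusedSectionVars false

namespace Cfsg.Agent.Lib.BBlock

open Subgroup Cfsg Cfsg.Agent.Lib.LocBase Cfsg.Agent.Lib.PReduced
open scoped commutatorElement

universe u
variable {G : Type u} [Group G] [Finite G] {p : ℕ} [hp : Fact p.Prime]

theorem omegaOneCenter_le (X : Subgroup G) : omegaOneCenter p X ≤ X := by
  unfold omegaOneCenter omegaOne
  rw [closure_le]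
  exact fun x hx => hx.1.1

theorem omegaOneCenter_eq_OZ (X : Subgroup G) : omegaOneCenter p X = OZ p X := rfl

/-- the block facts used below -/
structure Blk (p : ℕ) (T E : Subgroup G) : Prop where
  syl : IsSyl p T ⊤
  res : pRes p E = E
  comm : ⁅E, baumannSubgroupOf p T⁆ = E
  act : ⁅E, OZ p T⁆ ≠ ⊥
  /-- irreducibility of `W / Z` -/
  irr : ∀ X : Subgroup G, OZ p (pCoreOf p E) ⊓ centralizer (E : Set G) ≤ X → X ≤ OZ p (pCoreOf p E) →
    E ≤ normalizer (X : Set G) → X = OZ p (pCoreOf p E) ⊓ centralizer (E : Set G) ∨ X = OZ p (pCoreOf p E)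
  alt : pCoreOf p E = OZ p (pCoreOf p E) ∨
    ((∀ X : Subgroup G, OZ p (pCoreOf p E) ≤ X → X ≤ pCoreOf p E → E ≤ normalizer (X : Set G) →
      X = OZ p (pCoreOf p E) ∨ X = pCoreOf p E) ∧ ⁅pCoreOf p E, pCoreOf p E⁆ ≠ ⊥)

theorem blk_of {T E : Subgroup G} (hT : IsSyl p T ⊤) (h : IsBaumannBlock p T E) : Blk p T E := by
  obtain ⟨h1, h2, h3, h4, h5⟩ := h
  refine ⟨hT, by rw [← pResidualOf_eq]; exact h1, h2, h4, ?_, ?_⟩
  · intro X hX1 hX2 hX3
    rcases h5 with ⟨F, hF, hFin, n, hn, -, hact, -⟩ | ⟨-, m, -, hact, -⟩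
    · have := Finite.of_fintype F
      exact sl2_irr hact hX1 hX2 hX3
    · exact alt_irr hact hX1 hX2 hX3
  · rcases h5 with ⟨F, hF, hFin, n, hn, -, hact, hq⟩ | ⟨-, m, -, hact, hq⟩
    · rcases hq with hq | ⟨hp3, hact2, hq1, -, hq2, hq3, -⟩
      · exact Or.inl hq
      · right
        have := Finite.of_fintype F
        refine ⟨fun X hX1 hX2 hX3 => sl2_irr hact2 hX1 hX2 hX3, ?_⟩
        rw [hq1, ← hq2]
        intro hb
        rw [hb, Subgroup.card_bot] at hq3
        have h6 : 1 < Fintype.card F := Fintype.one_lt_card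
        rw [hn, hp3, ← hq3] at h6
        omega
    · exact Or.inl hq

namespace Blk

variable {T E : Subgroup G} (h : Blk p T E)
include h

theorem bau_le_N : baumannSubgroupOf p T ≤ normalizer (E : Set G) := le_normalizer_of_commutator_eq h.comm

/-- an abelian `E`-invariant subgroup of `O_p(E)` not centralized by `E` -/
theorem W_le {X : Subgroup G} (hXQ : X ≤ pCoreOf p E) (hXc : X ≤ centralizer (X : Set G))
    (hEX : E ≤ normalizer (X : Set G)) (hXE : ¬ X ≤ centralizer (E : Set G)) :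
    X ≤ OZ p (pCoreOf p E) ∧ ⁅OZ p (pCoreOf p E), E⁆ ≤ X := by
  set Q := pCoreOf p E with hQ
  set W := OZ p Q with hW
  have hWQ : W ≤ Q := OZ_le Q
  have hQW : Q ≤ centralizer (W : Set G) := le_centralizer_OZ Q
  have hEQ : E ≤ normalizer (Q : Set G) := le_normalizer_pCoreOf p E
  have hEW : E ≤ normalizer (W : Set G) := hEQ.trans (normalizer_le_normalizer_OZ p Q)
  have h1 : X ≤ W := by
    rcases h.alt with h2 | ⟨h2, h3⟩
    · exact hXQ.trans h2.le
    · rcases h2 (W ⊔ X) le_sup_left (sup_le hWQ hXQ) (le_normalizer_sup hEW hEX) with h4 | h4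
      · exact le_sup_right.trans h4.le
      · exfalso
        apply h3
        rw [commutator_eq_bot_iff_le_centralizer]
        have h6 : W ⊔ X ≤ centralizer ((W ⊔ X : Subgroup G) : Set G) := by
          refine sup_le ?_ ?_
          · rw [h4, ← Subgroup.le_centralizer_iff]; exact hQW
          · rw [Subgroup.le_centralizer_iff]
            refine sup_le ?_ hXc
            rw [← Subgroup.le_centralizer_iff]
            exact hXQ.trans hQW
        rw [h4] at h6
        exact h6
  refine ⟨h1, ?_⟩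
  set Z := W ⊓ centralizer (E : Set G) with hZ
  have hEZ : E ≤ normalizer (Z : Set G) := le_normalizer_inf hEW (le_normalizer_centralizer le_normalizer)
  have h2 : Z ⊔ X = W := by
    rcases h.irr (Z ⊔ X) le_sup_left (sup_le inf_le_left h1) (le_normalizer_sup hEZ hEX) with h4 | h4
    · exfalso
      apply hXE
      exact (le_sup_right.trans h4.le).trans inf_le_right
    · exact h4
  rw [commutator_le]
  intro w hw e he
  rw [← h2] at hw
  obtain ⟨z, hz, x, hx, rfl⟩ := exists_mul_of_mem_sup_of_le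
    (hXQ.trans ((pCoreOf_le E).trans hEZ)) hw
  have hze : z * e = e * z := (mem_centralizer_iff.mp hz.2 e he).symm
  have h3 : ⁅x, e⁆ ∈ X := commutator_le_left_of_le hEX (commutator_mem_commutator hx he)
  have hzx : z * ⁅x, e⁆ = ⁅x, e⁆ * z := by
    have := mem_centralizer_iff.mp (hQW (hXQ h3)) z hz.1
    exact this
  have e1 : ⁅z * x, e⁆ = (z * ⁅x, e⁆) * (e * z⁻¹ * e⁻¹) := by
    rw [commutatorElement_def, commutatorElement_def]; group
  have e2 : e * z⁻¹ * e⁻¹ = z⁻¹ := by
    rw [mul_inv_eq_iff_eq_mul]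
    calc e * z⁻¹ = z⁻¹ * (z * e) * z⁻¹ := by group
      _ = z⁻¹ * e := by rw [hze]; group
  rw [e1, e2, hzx, mul_inv_cancel_right]
  exact h3

theorem OZT_le_bau : OZ p T ≤ baumannSubgroupOf p T := by
  rw [bau_eq]
  refine le_inf (OZ_le T) ((OZ_le_centralizer T).trans (centralizer_le ?_))
  exact (ZJ_le_JT p T).trans (JT_le p T)

/-- coprime action of `E = O^p(E)` -/
theorem le_centralizer_of_comm {V : Subgroup G} (hV : IsPGroup p V) (hEV : E ≤ normalizer (V : Set G)) {A : Subgroup G}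
    (hA : A ≤ V) (h1 : ⁅A, E⁆ ≤ centralizer (E : Set G)) : A ≤ centralizer (E : Set G) := by
  rw [Subgroup.le_centralizer_iff]
  have hr := h.res
  rw [← hr, pRes_le_iff]
  intro x hx hxo
  rw [mem_centralizer_iff]
  intro a ha
  have hn : normalizer ((⊥ : Subgroup G) : Set G) = ⊤ := Subgroup.normalizer_eq_top_iff.mpr inferInstance
  have h2 : ⁅x, a⁆ ∈ ⁅A, E⁆ := by
    rw [← commutatorElement_inv]
    exact Subgroup.inv_mem _ (commutator_mem_commutator ha hx)
  have h3 : ⁅x, a⁆ ∈ V := by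
    have h4 : ⁅A, E⁆ ≤ V := (commutator_mono hA le_rfl).trans (commutator_le_left_of_le hEV)
    exact h4 h2
  have h4 : ⁅x, ⁅x, a⁆⁆ ∈ (⊥ : Subgroup G) := by
    rw [mem_bot, commutatorElement_eq_one_iff_mul_comm]
    exact mem_centralizer_iff.mp (h1 h2) x hx
  have h5 := commutator_mem_of_coprime (S := ⊥) hV hxo h3 (by rw [hn]; exact mem_top _) (by rw [hn]; exact mem_top _) h4
  rw [mem_bot, commutatorElement_eq_one_iff_mul_comm] at h5
  exact h5.symm

/-- `W_E` -/
abbrev WE (p : ℕ) (E : Subgroup G) : Subgroup G := ⁅OZ p (pCoreOf p E), E⁆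

variable (hG : centralizer (pCore p G : Set G) ≤ pCore p G)
include hG

omit h hG in
theorem pCore_le_syl (hT : IsSyl p T ⊤) : pCore p G ≤ T := by
  have := hT.pCoreOf_le
  rwa [pCoreOf_top] at this

theorem OZT_le : OZ p T ≤ OZ p (pCore p G) := by
  intro x hx
  rw [mem_OZ] at hx ⊢
  have h1 : x ∈ centralizer (pCore p G : Set G) := centralizer_le (pCore_le_syl h.syl) hx.2.1
  exact ⟨hG h1, h1, hx.2.2⟩

/-- **S2984**, middle part, with more information -/
theorem main84 : WE p E ≤ OZ p (pCore p G) ∧ ⁅E, OZ p T⁆ ≤ OZ p (pCoreOf p E) ∧ WE p E ≤ ⁅E, OZ p T⁆ ∧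
    ¬ ⁅E, OZ p T⁆ ≤ centralizer (E : Set G) := by
  set V := OZ p (pCore p G) with hV
  have hVn : ∀ K : Subgroup G, K ≤ normalizer (V : Set G) := by
    intro K
    have h1 : (pCore p G).Normal := pCore_normal p G
    have h2 : normalizer (pCore p G : Set G) = ⊤ := Subgroup.normalizer_eq_top_iff.mpr h1
    exact (le_top.trans h2.symm.le).trans (normalizer_le_normalizer_OZ p _)
  have hVp : IsPGroup p V := (isPGroup_pCore p G).to_le (OZ_le _)
  have hZV := h.OZT_le hG
  set X := ⁅E, OZ p T⁆ with hX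
  have hXV : X ≤ V := by
    rw [hX]
    exact (commutator_mono le_rfl hZV).trans (commutator_le_right_of_le (hVn E))
  have hXE : X ≤ E := by
    rw [hX, ← h.comm]
    conv_lhs => rw [h.comm]
    exact commutator_mono le_rfl h.OZT_le_bau
  have hVC : V ≤ centralizer (V : Set G) := (elem_iff.mp (elem_OZ p _)).1
  have hXc : X ≤ centralizer (X : Set G) := (hXV.trans hVC).trans (centralizer_le hXV)
  have hEX : E ≤ normalizer (X : Set G) := normalizer_commutator_ge_left _ _
  have hXQ : X ≤ pCoreOf p E := LocBase.le_pCoreOf hXE hEX (hVp.to_le hXV)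
  have hXnot : ¬ X ≤ centralizer (E : Set G) := by
    intro hc
    apply h.act
    have h1 := h.le_centralizer_of_comm hVp (hVn E) hZV (by rw [commutator_comm]; exact hc)
    rw [commutator_eq_bot_iff_le_centralizer, Subgroup.le_centralizer_iff]
    exact h1
  obtain ⟨h1, h2⟩ := h.W_le hXQ hXc hEX hXnot
  exact ⟨h2.trans hXV, h1, h2, hXnot⟩

theorem pCore_le_N : pCore p G ≤ normalizer (E : Set G) := by
  have h2 : normalizer (pCore p G : Set G) = ⊤ := Subgroup.normalizer_eq_top_iff.mpr (pCore_normal p G)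
  exact normalizes h.syl h.res h.comm (isPGroup_pCore p G) (by rw [h2]; exact le_top) (by rw [h2]; exact le_top)

/-- `[W_E, J(T)] ≠ 1` -/
theorem J_act : ⁅WE p E, thompsonSubgroupOf p T⁆ ≠ ⊥ := by
  rw [ThompsonJ.thompsonSubgroupOf_eq]
  intro hb
  obtain ⟨h1, h2, h3, h4⟩ := h.main84 hG
  rw [commutator_eq_bot_iff_le_centralizer] at hb
  have hWT : WE p E ≤ T := (h1.trans (OZ_le _)).trans (pCore_le_syl h.syl)
  have hWel : IsElementaryAbelian p (WE p E) := elem_mono (elem_OZ p _) h1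
  have hWA : ∀ A ∈ ThompsonJ.maxIn (Cfsg.IsElementaryAbelian p) T, WE p E ≤ A := by
    intro A hA
    have h5 : IsElementaryAbelian p (WE p E ⊔ A) :=
      elem_sup hWel hA.2.1 (hb.trans (centralizer_le (ThompsonJ.le_J hA)))
    have h6 := hA.2.2 _ (sup_le hWT hA.1) h5
    have h7 : A = WE p E ⊔ A := Subgroup.eq_of_le_of_card_ge le_sup_right h6
    exact le_sup_left.trans h7.symm.le
  obtain ⟨A, hA⟩ := maxIn_nonempty (p := p) T
  have hWJ : WE p E ≤ JT p T := (hWA A hA).trans (ThompsonJ.le_J hA)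
  have hWZ : WE p E ≤ ZJ p T := by
    intro x hx
    exact subset_closure ⟨⟨hWJ hx, hb hx⟩, (elem_iff.mp hWel).2 x hx⟩
  have hBC : baumannSubgroupOf p T ≤ centralizer (WE p E : Set G) := by
    rw [bau_eq]
    exact inf_le_right.trans (centralizer_le hWZ)
  have hEW : E ≤ normalizer (WE p E : Set G) := normalizer_commutator_ge_right _ _
  have hEC : E ≤ centralizer (WE p E : Set G) := le_of_commutator_eq h.comm hBC (le_normalizer_centralizer hEW)
  apply h4
  have h5 : OZ p (pCoreOf p E) ≤ centralizer (E : Set G) :=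
    h.le_centralizer_of_comm (isPGroup_pCoreOf p E) (le_normalizer_pCoreOf p E) (OZ_le _)
      (Subgroup.le_centralizer_iff.mp hEC)
  exact h2.trans h5

end Blk

end Cfsg.Agent.Lib.BBlock
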