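import Cfsg.Agent.Lib.BBlock

/-!
# Irreducibility of the natural modules occurring in blocks (helper47)
-/

set_option autoImplicit false
set_option linter.unusedSectionVars false

namespace Cfsg.Agent.Lib.BBlock

open Subgroup Cfsg Cfsg.Agent.Lib.LocBase Cfsg.Agent.Lib.PReduced
open scoped commutatorElement

section SL

variable {F : Type*} [Field F]

abbrev SL2 (F : Type*) [Field F] := Matrix.SpecialLinearGroup (Fin 2) F

def up (b : F) : SL2 F := ⟨!![1, b; 0, 1], by simp [Matrix.det_fin_two]⟩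
def lo (b : F) : SL2 F := ⟨!![1, 0; b, 1], by simp [Matrix.det_fin_two]⟩
def dg (t : F) (ht : t ≠ 0) : SL2 F := ⟨!![t, 0; 0, t⁻¹], by simp [Matrix.det_fin_two, ht]⟩

theorem up_comm (b t : F) (ht : t ≠ 0) : ⁅dg t ht, up b⁆ = up ((t ^ 2 - 1) * b) := by
  rw [commutatorElement_def, mul_inv_eq_iff_eq_mul, mul_inv_eq_iff_eq_mul]
  apply Subtype.ext
  change !![t, 0; 0, t⁻¹] * !![1, b; 0, 1] = !![1, (t ^ 2 - 1) * b; 0, 1] * !![1, b; 0, 1] * !![t, 0; 0, t⁻¹]
  ext i j
  fin_cases i <;> fin_cases j <;> simp [Matrix.mul_apply, Fin.sum_univ_two]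
  field_simp
  ring

theorem lo_comm (b t : F) (ht : t ≠ 0) : ⁅dg t ht, lo b⁆ = lo ((t⁻¹ ^ 2 - 1) * b) := by
  rw [commutatorElement_def, mul_inv_eq_iff_eq_mul, mul_inv_eq_iff_eq_mul]
  apply Subtype.ext
  change !![t, 0; 0, t⁻¹] * !![1, 0; b, 1] = !![1, 0; (t⁻¹ ^ 2 - 1) * b, 1] * !![1, 0; b, 1] * !![t, 0; 0, t⁻¹]
  ext i j
  fin_cases i <;> fin_cases j <;> simp [Matrix.mul_apply, Fin.sum_univ_two]
  field_simp
  ring

/-- invariance under the derived group -/
def Inv (X : AddSubgroup (Fin 2 → F)) : Prop :=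
  ∀ r ∈ commutator (SL2 F), ∀ v ∈ X, (r : Matrix (Fin 2) (Fin 2) F).mulVec v ∈ X

theorem inv_big [Finite F] {t : F} (ht : t ≠ 0) (ht2 : t ^ 2 ≠ 1) {X : AddSubgroup (Fin 2 → F)} (hX : Inv X)
    {v : Fin 2 → F} (hv : v ∈ X) (hv0 : v ≠ 0) : X = ⊤ := by
  have hup : ∀ b : F, up b ∈ commutator (SL2 F) := by
    intro b
    have h1 : t ^ 2 - 1 ≠ 0 := sub_ne_zero.mpr ht2
    have h2 : up b = ⁅dg t ht, up ((t ^ 2 - 1)⁻¹ * b)⁆ := by
      rw [up_comm]; congr 1; field_simp
    rw [h2]
    exact commutator_mem_commutator (mem_top _) (mem_top _)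
  have hlo : ∀ b : F, lo b ∈ commutator (SL2 F) := by
    intro b
    have h1 : t⁻¹ ^ 2 - 1 ≠ 0 := by
      rw [sub_ne_zero, inv_pow]
      intro h
      exact ht2 (inv_eq_one.mp h)
    have h2 : lo b = ⁅dg t ht, lo ((t⁻¹ ^ 2 - 1)⁻¹ * b)⁆ := by
      rw [lo_comm]; congr 1; field_simp
    rw [h2]
    exact commutator_mem_commutator (mem_top _) (mem_top _)
  have e1 : ∀ (b : F) (w : Fin 2 → F), w ∈ X → (![b * w 1, 0] : Fin 2 → F) ∈ X := by
    intro b w hw
    have h1 := X.sub_mem (hX _ (hup b) w hw) hw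
    convert h1 using 1
    ext i
    fin_cases i <;> simp [up, dotProduct, Fin.sum_univ_two]
  have e2 : ∀ (b : F) (w : Fin 2 → F), w ∈ X → (![0, b * w 0] : Fin 2 → F) ∈ X := by
    intro b w hw
    have h1 := X.sub_mem (hX _ (hlo b) w hw) hw
    convert h1 using 1
    ext i
    fin_cases i <;> simp [lo, dotProduct, Fin.sum_univ_two]
  have e3 : ∀ a : F, (![a, 0] : Fin 2 → F) ∈ X := by
    by_cases h1 : v 1 = 0
    · have h0 : v 0 ≠ 0 := by
        intro h0
        apply hv0
        ext i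
        fin_cases i
        · exact h0
        · exact h1
      intro a
      have h2 := e2 ((v 0)⁻¹) v hv
      have h3 := e1 a _ h2
      simpa [h0] using h3
    · intro a
      have h3 := e1 (a * (v 1)⁻¹) v hv
      simpa [h1] using h3
  have e4 : ∀ a : F, (![0, a] : Fin 2 → F) ∈ X := by
    intro a
    have h3 := e2 a _ (e3 1)
    simpa using h3
  rw [eq_top_iff]
  intro w _
  have h1 := X.add_mem (e3 (w 0)) (e4 (w 1))
  convert h1 using 1
  ext i
  fin_cases i <;> simp

theorem cc_eq : ((⁅up (1 : F), lo (1 : F)⁆ : SL2 F) : Matrix (Fin 2) (Fin 2) F) = !![3, -1; 1, 0] := by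
  have h1 : ⁅up (1 : F), lo (1 : F)⁆ = up 1 * lo 1 * up (-1) * lo (-1) := by
    have e1 : (up (1 : F))⁻¹ = up (-1) := by
      rw [inv_eq_iff_mul_eq_one]
      apply Subtype.ext
      change !![1, (1 : F); 0, 1] * !![1, -1; 0, 1] = 1
      ext i j
      fin_cases i <;> fin_cases j <;> simp [Matrix.mul_apply, Fin.sum_univ_two]
    have e2 : (lo (1 : F))⁻¹ = lo (-1) := by
      rw [inv_eq_iff_mul_eq_one]
      apply Subtype.ext
      change !![1, (0 : F); 1, 1] * !![1, 0; -1, 1] = 1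
      ext i j
      fin_cases i <;> fin_cases j <;> simp [Matrix.mul_apply, Fin.sum_univ_two]
    rw [commutatorElement_def, e1, e2]
  rw [h1]
  change !![1, (1 : F); 0, 1] * !![1, 0; 1, 1] * !![1, -1; 0, 1] * !![1, 0; -1, 1] = _
  ext i j
  fin_cases i <;> fin_cases j <;> simp [Matrix.mul_apply, Fin.sum_univ_two] <;> norm_num

theorem inv_small (hs : ∀ t : F, t ≠ 0 → t ^ 2 = 1) {X : AddSubgroup (Fin 2 → F)} (hX : Inv X)
    {v : Fin 2 → F} (hv : v ∈ X) (hv0 : v ≠ 0) : X = ⊤ := by
  have hsm : ∀ (a : F) (w : Fin 2 → F), w ∈ X → a • w ∈ X := by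
    intro a w hw
    by_cases ha : a = 0
    · rw [ha, zero_smul]; exact X.zero_mem
    · have h1 : (a - 1) * (a + 1) = 0 := by
        have := hs a ha
        ring_nf
        rw [this]; ring
      rcases mul_eq_zero.mp h1 with h | h
      · rw [sub_eq_zero.mp h, one_smul]; exact hw
      · rw [eq_neg_of_add_eq_zero_left h, neg_smul, one_smul]; exact X.neg_mem hw
  have hc : (⁅up (1 : F), lo (1 : F)⁆ : SL2 F) ∈ commutator (SL2 F) := commutator_mem_commutator (mem_top _) (mem_top _)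
  have hu := hX _ hc v hv
  rw [cc_eq] at hu
  have hu' : (!![3, -1; 1, 0] : Matrix (Fin 2) (Fin 2) F).mulVec v = ![3 * v 0 - v 1, v 0] := by
    ext i
    fin_cases i <;> simp [dotProduct, Fin.sum_univ_two] <;> ring
  rw [hu'] at hu
  have hD : v 0 ^ 2 - 3 * v 0 * v 1 + v 1 ^ 2 ≠ 0 := by
    have h01 : ¬ (v 0 = 0 ∧ v 1 = 0) := by
      rintro ⟨h0, h1⟩
      apply hv0
      ext i
      fin_cases i
      · exact h0
      · exact h1
    by_cases h2 : (2 : F) = 0
    · have h3 : (3 : F) = 1 := by linear_combination h2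
      by_cases h0 : v 0 = 0
      · have h1 : v 1 ≠ 0 := fun h1 => h01 ⟨h0, h1⟩
        rw [h0, hs _ h1]; simp
      · by_cases h1 : v 1 = 0
        · rw [h1, hs _ h0]; simp
        · have e0 : v 0 = 1 := by
            have := hs _ h0
            have h5 : (v 0 - 1) ^ 2 = 0 := by linear_combination this + (1 - v 0) * h2
            exact sub_eq_zero.mp (pow_eq_zero_iff (two_ne_zero) |>.mp h5)
          have e1 : v 1 = 1 := by
            have := hs _ h1
            have h5 : (v 1 - 1) ^ 2 = 0 := by linear_combination this + (1 - v 1) * h2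
            exact sub_eq_zero.mp (pow_eq_zero_iff (two_ne_zero) |>.mp h5)
          rw [e0, e1, h3]
          intro h
          have : (1 : F) = 0 := by linear_combination h
          exact one_ne_zero this
    · have h3 : (3 : F) = 0 := by
        have := hs _ h2
        linear_combination this
      rw [h3]
      by_cases h0 : v 0 = 0
      · have h1 : v 1 ≠ 0 := fun h1 => h01 ⟨h0, h1⟩
        rw [h0, hs _ h1]; simp
      · by_cases h1 : v 1 = 0
        · rw [h1, hs _ h0]; simp
        · rw [hs _ h0, hs _ h1]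
          intro h
          apply h2
          linear_combination h
  rw [eq_top_iff]
  intro w _
  set D := v 0 ^ 2 - 3 * v 0 * v 1 + v 1 ^ 2 with hDdef
  have h1 := X.add_mem (hsm ((w 0 * v 0 - w 1 * (3 * v 0 - v 1)) / D) _ hv) (hsm ((v 0 * w 1 - v 1 * w 0) / D) _ hu)
  convert h1 using 1
  ext i
  fin_cases i
  · simp
    field_simp
    rw [hDdef]; ring
  · simp
    field_simp
    rw [hDdef]; ring

/-- **irreducibility of the natural module for the derived group** -/
theorem inv_top [Finite F] {X : AddSubgroup (Fin 2 → F)} (hX : Inv X) {v : Fin 2 → F} (hv : v ∈ X) (hv0 : v ≠ 0) :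
    X = ⊤ := by
  by_cases h : ∃ t : F, t ≠ 0 ∧ t ^ 2 ≠ 1
  · obtain ⟨t, ht, ht2⟩ := h
    exact inv_big ht ht2 hX hv hv0
  · push Not at h
    exact inv_small h hX hv hv0

end SL

section Alt

variable {n : ℕ}

/-- invariance under even permutations -/
def InvA (Y : AddSubgroup (Fin n → ZMod 2)) : Prop :=
  ∀ s ∈ alternatingGroup (Fin n), ∀ v ∈ Y, (fun i => v ((s⁻¹ : Equiv.Perm (Fin n)) i)) ∈ Y

def es (a b : Fin n) : Fin n → ZMod 2 := Pi.single a 1 + Pi.single b 1

theorem z2 (x : ZMod 2) : x = 0 ∨ x = 1 := by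
  fin_cases x
  · left; rfl
  · right; rfl

theorem three_mem {a b c : Fin n} (hab : a ≠ b) (hbc : b ≠ c) :
    Equiv.swap a b * Equiv.swap b c ∈ alternatingGroup (Fin n) := by
  rw [Equiv.Perm.mem_alternatingGroup, Equiv.Perm.sign_mul, Equiv.Perm.sign_swap hab, Equiv.Perm.sign_swap hbc]
  simp

theorem invA_three {Y : AddSubgroup (Fin n → ZMod 2)} (hY : InvA Y) {a b c : Fin n} (hab : a ≠ b) (hbc : b ≠ c)
    {v : Fin n → ZMod 2} (hv : v ∈ Y) : (fun i => v ((Equiv.swap a b * Equiv.swap b c) i)) ∈ Y := by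
  have h1 := hY _ (Subgroup.inv_mem _ (three_mem hab hbc)) v hv
  rwa [inv_inv] at h1

theorem invA_step {Y : AddSubgroup (Fin n → ZMod 2)} (hY : InvA Y) {a b c : Fin n} (hab : a ≠ b) (hbc : b ≠ c)
    (hac : a ≠ c) (h : es a b ∈ Y) : es a c ∈ Y := by
  have h1 := invA_three hY hab hbc h
  convert h1 using 1
  ext i
  simp only [es, Pi.add_apply, Equiv.Perm.mul_apply]
  by_cases hia : i = a
  · subst hia
    rw [Equiv.swap_apply_of_ne_of_ne hab hac, Equiv.swap_apply_left]
    simp [hab, hab.symm, hac]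
  · by_cases hib : i = b
    · subst hib
      rw [Equiv.swap_apply_left, Equiv.swap_apply_of_ne_of_ne hac.symm hbc.symm]
      simp [hab.symm, hbc, hac.symm, hbc.symm]
    · by_cases hic : i = c
      · subst hic
        rw [Equiv.swap_apply_right, Equiv.swap_apply_right]
        simp [hac.symm, hab]
      · rw [Equiv.swap_apply_of_ne_of_ne hib hic, Equiv.swap_apply_of_ne_of_ne hia hib]
        simp [hia, hib, hic]

theorem invA_top {m : ℕ} {Y : AddSubgroup (Fin (2 * m + 1) → ZMod 2)} (hY : InvA Y) (he : ∀ v ∈ Y, ∑ i, v i = 0)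
    {v : Fin (2 * m + 1) → ZMod 2} (hv : v ∈ Y) (hv0 : v ≠ 0) {w : Fin (2 * m + 1) → ZMod 2} (hw : ∑ i, w i = 0) :
    w ∈ Y := by
  classical
  obtain ⟨a, ha⟩ : ∃ a, v a ≠ 0 := by
    by_contra hcon
    push Not at hcon
    exact hv0 (funext hcon)
  have ha1 : v a = 1 := (z2 (v a)).resolve_left ha
  obtain ⟨b, hb⟩ : ∃ b, v b = 0 := by
    by_contra hcon
    push Not at hcon
    have h1 : ∀ i, v i = 1 := fun i => (z2 (v i)).resolve_left (hcon i)
    have h2 := he v hv
    simp only [h1, Finset.sum_const, Finset.card_univ, Fintype.card_fin, nsmul_eq_mul, mul_one] at h2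
    have h3 : ((2 * m + 1 : ℕ) : ZMod 2) = 1 := by
      push_cast
      have : (2 : ZMod 2) = 0 := by decide
      rw [this]; simp
    rw [h3] at h2
    exact one_ne_zero h2
  have hab : a ≠ b := by
    rintro rfl
    rw [hb] at ha1
    exact zero_ne_one ha1
  obtain ⟨c, hca, hcb⟩ : ∃ c, c ≠ a ∧ c ≠ b := by
    by_contra hcon
    push Not at hcon
    have h1 : (Finset.univ : Finset (Fin (2 * m + 1))) ⊆ {a, b} := by
      intro c _
      by_cases hc : c = a
      · simp [hc]
      · simp [hcon c hc]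
    have h2 := Finset.card_le_card h1
    rw [Finset.card_univ, Fintype.card_fin, Finset.card_pair hab] at h2
    have h3 : m = 0 := by omega
    subst h3
    exact hab (Subsingleton.elim (α := Fin 1) a b)
  have h1 : ∃ x, x ≠ a ∧ es a x ∈ Y := by
    have h2 := Y.add_mem hv (invA_three hY hab hcb.symm hv)
    rcases z2 (v c) with hc | hc
    · refine ⟨c, hca, ?_⟩
      convert h2 using 1
      ext i
      simp only [es, Pi.add_apply, Equiv.Perm.mul_apply]
      by_cases hia : i = a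
      · subst hia
        rw [Equiv.swap_apply_of_ne_of_ne hab hca.symm, Equiv.swap_apply_left, ha1, hb]
        simp [hca.symm]
      · by_cases hib : i = b
        · subst hib
          rw [Equiv.swap_apply_left, Equiv.swap_apply_of_ne_of_ne hca hcb, hb, hc]
          simp [hab.symm, hcb.symm]
        · by_cases hic : i = c
          · subst hic
            rw [Equiv.swap_apply_right, Equiv.swap_apply_right, ha1, hc]
            simp [hca]
          · rw [Equiv.swap_apply_of_ne_of_ne hib hic, Equiv.swap_apply_of_ne_of_ne hia hib, CharTwo.add_self_eq_zero]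
            simp [hia, hic]
    · refine ⟨b, hab.symm, ?_⟩
      convert h2 using 1
      ext i
      simp only [es, Pi.add_apply, Equiv.Perm.mul_apply]
      by_cases hia : i = a
      · subst hia
        rw [Equiv.swap_apply_of_ne_of_ne hab hca.symm, Equiv.swap_apply_left, ha1, hb]
        simp [hab]
      · by_cases hib : i = b
        · subst hib
          rw [Equiv.swap_apply_left, Equiv.swap_apply_of_ne_of_ne hca hcb, hb, hc]
          simp [hab.symm]
        · by_cases hic : i = c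
          · subst hic
            rw [Equiv.swap_apply_right, Equiv.swap_apply_right, ha1, hc, CharTwo.add_self_eq_zero]
            simp [hca, hcb]
          · rw [Equiv.swap_apply_of_ne_of_ne hib hic, Equiv.swap_apply_of_ne_of_ne hia hib, CharTwo.add_self_eq_zero]
            simp [hia, hib]
  obtain ⟨x, hxa, hx⟩ := h1
  have h2 : ∀ c, es a c ∈ Y := by
    intro c
    by_cases hc : c = a
    · subst hc
      have : es c c = 0 := by
        unfold es
        ext i
        simp [CharTwo.add_self_eq_zero]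
      rw [this]; exact Y.zero_mem
    · by_cases hcx : c = x
      · rw [hcx]; exact hx
      · exact invA_step hY hxa.symm (Ne.symm hcx) (Ne.symm hc) hx
  have h3 : w = ∑ c, (if w c = 0 then 0 else es a c) := by
    have e1 : ∀ c, (if w c = 0 then (0 : Fin (2 * m + 1) → ZMod 2) else es a c) =
        w c • (Pi.single a 1 : Fin (2 * m + 1) → ZMod 2) + Pi.single c (w c) := by
      intro c
      rcases z2 (w c) with hc | hc
      · rw [if_pos hc, hc]; simp
      · rw [if_neg (by rw [hc]; exact one_ne_zero), hc]; simp [es]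
    simp_rw [e1]
    rw [Finset.sum_add_distrib, ← Finset.sum_smul, hw, zero_smul, zero_add]
    exact (Finset.univ_sum_single w).symm
  rw [h3]
  apply Y.sum_mem
  intro c _
  split_ifs
  · exact Y.zero_mem
  · exact h2 c

end Alt

section sections

variable {G : Type*} [Group G]

/-- image of a subgroup as an additive subgroup -/
def img {A : Type*} [AddCommGroup A] {U : Subgroup G} (ψ : ↥U →* Multiplicative A) (X : Subgroup G) : AddSubgroup A where
  carrier := {v | ∃ u : ↥U, (u : G) ∈ X ∧ Multiplicative.toAdd (ψ u) = v}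
  add_mem' := by
    rintro _ _ ⟨u, hu, rfl⟩ ⟨v, hv, rfl⟩
    exact ⟨u * v, X.mul_mem hu hv, by rw [map_mul]; rfl⟩
  zero_mem' := ⟨1, X.one_mem, by rw [map_one]; rfl⟩
  neg_mem' := by
    rintro _ ⟨u, hu, rfl⟩
    exact ⟨u⁻¹, X.inv_mem hu, by rw [map_inv]; rfl⟩

theorem sl2_irr {F : Type*} [Field F] [Finite F] {E U U₀ X : Subgroup G}
    (h : ActsAsSL2OnSection F (commutator (Matrix.SpecialLinearGroup (Fin 2) F)) E U U₀) (hX1 : U₀ ≤ X) (hX2 : X ≤ U)
    (hX3 : E ≤ normalizer (X : Set G)) : X = U₀ ∨ X = U := by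
  obtain ⟨h1, h2, ρ, ψ, hρ, hψ, hker, hact⟩ := h
  have hinv : Inv (img ψ X) := by
    rintro r hr _ ⟨u, hu, rfl⟩
    rw [← hρ] at hr
    obtain ⟨e, rfl⟩ := hr
    obtain ⟨w, hw, hw2⟩ := hact e u
    exact ⟨w, by rw [hw]; exact conj_mem_of_le_normalizer hX3 e.2 hu, hw2⟩
  by_cases hz : ∀ v ∈ img ψ X, v = 0
  · left
    refine le_antisymm (fun x hx => ?_) hX1
    have h3 := hz _ ⟨⟨x, hX2 hx⟩, hx, rfl⟩
    exact (hker ⟨x, hX2 hx⟩).mp h3
  · right
    push Not at hz
    obtain ⟨v, hv, hv0⟩ := hz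
    have htop := inv_top hinv hv hv0
    refine le_antisymm hX2 (fun u hu => ?_)
    have h3 : Multiplicative.toAdd (ψ ⟨u, hu⟩) ∈ img ψ X := by rw [htop]; exact AddSubgroup.mem_top _
    obtain ⟨x, hx, hx2⟩ := h3
    have h4 : ψ (x⁻¹ * ⟨u, hu⟩) = 1 := by
      rw [map_mul, map_inv, inv_mul_eq_one]
      exact hx2
    have h5 := (hker _).mp h4
    have h6 := X.mul_mem hx (hX1 h5)
    simpa using h6

theorem alt_irr {m : ℕ} {E U U₀ X : Subgroup G}
    (h : ActsAsOddPermModuleOnSection (2 * m + 1) (alternatingGroup (Fin (2 * m + 1))) E U U₀) (hX1 : U₀ ≤ X)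
    (hX2 : X ≤ U) (hX3 : E ≤ normalizer (X : Set G)) : X = U₀ ∨ X = U := by
  obtain ⟨h1, h2, ρ, ψ, hρ, hsum, hψ, hker, hact⟩ := h
  have hinv : InvA (img ψ X) := by
    rintro r hr _ ⟨u, hu, rfl⟩
    rw [← hρ] at hr
    obtain ⟨e, rfl⟩ := hr
    obtain ⟨w, hw, hw2⟩ := hact e u
    exact ⟨w, by rw [hw]; exact conj_mem_of_le_normalizer hX3 e.2 hu, funext hw2⟩
  have hev : ∀ v ∈ img ψ X, ∑ i, v i = 0 := by
    rintro _ ⟨u, hu, rfl⟩
    exact hsum u
  by_cases hz : ∀ v ∈ img ψ X, v = 0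
  · left
    refine le_antisymm (fun x hx => ?_) hX1
    have h3 := hz _ ⟨⟨x, hX2 hx⟩, hx, rfl⟩
    exact (hker ⟨x, hX2 hx⟩).mp h3
  · right
    push Not at hz
    obtain ⟨v, hv, hv0⟩ := hz
    refine le_antisymm hX2 (fun u hu => ?_)
    have h3 : Multiplicative.toAdd (ψ ⟨u, hu⟩) ∈ img ψ X := invA_top hinv hev hv hv0 (hsum _)
    obtain ⟨x, hx, hx2⟩ := h3
    have h4 : ψ (x⁻¹ * ⟨u, hu⟩) = 1 := by
      rw [map_mul, map_inv, inv_mul_eq_one]
      exact hx2
    have h5 := (hker _).mp h4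
    have h6 := X.mul_mem hx (hX1 h5)
    simpa using h6

end sections

end Cfsg.Agent.Lib.BBlock
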