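import Mathlib

/-!
Utilities for the Brauer–Feit analogue of Jordan's theorem: relative indices, `p'`-parts of
groups whose `p`-regular elements commute.
-/

set_option autoImplicit false

namespace Cfsg.Agent.Lib.BFJ

variable {G : Type*} [Group G]

/-- `A` is an abelian `p'`-subgroup. -/
def Good (p : ℕ) (A : Subgroup G) : Prop :=
  (∀ x ∈ A, ∀ y ∈ A, x * y = y * x) ∧ ∀ x ∈ A, ¬ p ∣ orderOf x

theorem Good.mono {p : ℕ} {A B : Subgroup G} (hA : Good p A) (h : B ≤ A) : Good p B :=
  ⟨fun x hx y hy => hA.1 x (h hx) y (h hy), fun x hx => hA.2 x (h hx)⟩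

theorem Good.le_centralizer {p : ℕ} {A : Subgroup G} (hA : Good p A) {y : G} (hy : y ∈ A) :
    A ≤ Subgroup.centralizer {y} := fun x hx =>
  Subgroup.mem_centralizer_singleton_iff.2 (hA.1 x hx y hy)

theorem Good.map {H : Type*} [Group H] {p : ℕ} {A : Subgroup G} (hA : Good p A) (f : G →* H) :
    Good p (A.map f) := by
  constructor
  · rintro _ ⟨x, hx, rfl⟩ _ ⟨y, hy, rfl⟩
    rw [← map_mul, ← map_mul, hA.1 x hx y hy]
  · rintro _ ⟨x, hx, rfl⟩ h
    exact hA.2 x hx (h.trans (orderOf_map_dvd f x))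

section Fin

variable [Finite G]

theorem relIndex_le_of_inj {α : Type*} [Fintype α] (H K : Subgroup G) (f : G → α)
    (h : ∀ x ∈ K, ∀ y ∈ K, f x = f y → x⁻¹ * y ∈ H) : H.relIndex K ≤ Fintype.card α := by
  have h1 : H.relIndex K = Nat.card (K ⧸ H.subgroupOf K) := rfl
  rw [h1, ← Nat.card_eq_fintype_card]
  refine Nat.card_le_card_of_injective (fun q : K ⧸ H.subgroupOf K => f (q.out : K)) ?_
  intro q q' hq
  have h2 := h _ q.out.2 _ q'.out.2 hq
  rw [← QuotientGroup.out_eq' q, ← QuotientGroup.out_eq' q']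
  exact QuotientGroup.eq.2 h2

theorem relIndex_ne (H K : Subgroup G) : H.relIndex K ≠ 0 := Subgroup.index_ne_zero_of_finite

theorem card_inf_mul (H K : Subgroup G) :
    Nat.card (H ⊓ K : Subgroup G) * H.relIndex K = Nat.card K := by
  have h := Subgroup.relIndex_mul_relIndex ⊥ (H ⊓ K) K bot_le inf_le_right
  rwa [Subgroup.relIndex_bot_left, Subgroup.inf_relIndex_right, Subgroup.relIndex_bot_left] at h

theorem card_le_of_relIndex {H K : Subgroup G} {c : ℕ} (h : H.relIndex K ≤ c) :
    Nat.card K ≤ c * Nat.card (H ⊓ K : Subgroup G) := by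
  rw [← card_inf_mul H K, mul_comm]
  exact Nat.mul_le_mul_right _ h

theorem exists_ne_of_card {H : Subgroup G} (h : 1 < Nat.card H) : ∃ x ∈ H, x ≠ 1 := by
  by_contra hcon
  push Not at hcon
  have : H = ⊥ := (Subgroup.eq_bot_iff_forall H).2 hcon
  rw [this, Subgroup.card_bot] at h
  omega

theorem one_lt_card_of_ne {H : Subgroup G} {x : G} (hx : x ∈ H) (h1 : x ≠ 1) : 1 < Nat.card H := by
  by_contra hcon
  have h2 : Nat.card H = 1 := by
    have : 0 < Nat.card H := Nat.card_pos
    omega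
  have := Subgroup.card_eq_one.1 h2
  rw [this, Subgroup.mem_bot] at hx
  exact h1 hx

theorem pow_factorial_mem {H K : Subgroup G} {c : ℕ} (h : H.relIndex K ≤ c) {x : G} (hx : x ∈ K) :
    x ^ c.factorial ∈ H :=
  (Subgroup.pow_mem_of_relIndex_ne_zero_of_dvd (relIndex_ne H K) hx
    fun _ hm1 hm2 => Nat.dvd_factorial hm1 (hm2.trans h)).1

/-- If the `p`-regular elements of the normal subgroup `B` commute, they form an abelian normal
subgroup of index at most the `p`-part. -/
theorem exists_ppart {p : ℕ} (hp : p.Prime) {B : Subgroup G} (hB : B.Normal)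
    (hc : ∀ x ∈ B, ∀ y ∈ B, ¬ p ∣ orderOf x → ¬ p ∣ orderOf y → x * y = y * x) {m : ℕ}
    (hm : (Nat.card G).factorization p ≤ m) :
    ∃ A : Subgroup G, A.Normal ∧ A ≤ B ∧ Good p A ∧ A.relIndex B ≤ p ^ m := by
  have := Fact.mk hp
  let A : Subgroup G :=
    { carrier := {x | x ∈ B ∧ ¬ p ∣ orderOf x}
      mul_mem' := by
        rintro x y ⟨hx, hx'⟩ ⟨hy, hy'⟩
        refine ⟨B.mul_mem hx hy, fun h => ?_⟩
        have hcomm : Commute x y := hc x hx y hy hx' hy'
        have h1 := h.trans hcomm.orderOf_mul_dvd_lcm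
        have h2 : p ∣ orderOf x * orderOf y := h1.trans (Nat.lcm_dvd_mul _ _)
        rcases (Nat.Prime.dvd_mul hp).1 h2 with h3 | h3
        · exact hx' h3
        · exact hy' h3
      one_mem' := ⟨B.one_mem, by rw [orderOf_one]; exact hp.one_lt.ne' ∘ Nat.dvd_one.1⟩
      inv_mem' := by
        rintro x ⟨hx, hx'⟩
        exact ⟨B.inv_mem hx, by rwa [orderOf_inv]⟩ }
  have hAmem : ∀ x, x ∈ A ↔ x ∈ B ∧ ¬ p ∣ orderOf x := fun x => Iff.rfl
  have hAB : A ≤ B := fun x hx => hx.1
  refine ⟨A, ⟨fun x hx g => ?_⟩, hAB, ⟨fun x hx y hy => hc x hx.1 y hy.1 hx.2 hy.2, fun x hx => hx.2⟩, ?_⟩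
  · refine ⟨hB.conj_mem x hx.1 g, ?_⟩
    have : orderOf (g * x * g⁻¹) = orderOf x := by
      have := orderOf_injective (MulAut.conj g).toMonoidHom (MulAut.conj g).injective x
      simpa [MulAut.conj_apply] using this
    rw [this]; exact hx.2
  · have hne : A.relIndex B ≠ 0 := relIndex_ne A B
    have hprime : ∀ {d : ℕ}, d.Prime → d ∣ A.relIndex B → d = p := by
      intro r hr hd
      by_contra hrp
      have := Fact.mk hr
      let R : Sylow r B := default
      have hle : (R : Subgroup B) ≤ A.subgroupOf B := by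
        intro x hx
        rw [Subgroup.mem_subgroupOf]
        refine ⟨x.2, fun h => ?_⟩
        obtain ⟨j, hj⟩ := IsPGroup.iff_orderOf.1 R.2 ⟨x, hx⟩
        rw [Subgroup.orderOf_mk] at hj
        have e : orderOf (x : G) = orderOf x := Subgroup.orderOf_coe x
        rw [e, hj] at h
        have := hp.dvd_of_dvd_pow h
        exact hrp ((Nat.prime_dvd_prime_iff_eq hp hr).1 this).symm
      have h3 : (A.subgroupOf B).index ∣ (R : Subgroup B).index := Subgroup.index_dvd_of_le hle
      exact R.not_dvd_index (hd.trans h3)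
    have h4 := Nat.eq_prime_pow_of_unique_prime_dvd hne hprime
    rw [h4]
    apply Nat.pow_le_pow_right hp.pos
    refine le_trans ?_ hm
    have h5 : p ^ (A.relIndex B).primeFactorsList.length ∣ Nat.card G := by
      rw [← h4]
      exact (Subgroup.relIndex_dvd_card A B).trans (Subgroup.card_subgroup_dvd_card B)
    exact (hp.pow_dvd_iff_le_factorization Nat.card_pos.ne').1 h5

end Fin

end Cfsg.Agent.Lib.BFJ
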