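import Cfsg.Agent.Lib.MaxDegP
import Cfsg.Agent.Lib.CdP
import Cfsg.Agent.Lib.GalConj
import Cfsg.Agent.S0144

/-!
# Abelian subgroups of bounded index

If all irreducible characters of `G` have degree at most `b`, there is an abelian subgroup of index
at most `(b!)²`. The argument rests on the remark that a character of degree `b` of a subgroup `H`
vanishes off the core of `H`.
-/

set_option autoImplicit false
set_option linter.all false

namespace Cfsg.Agent.Lib.BFull

open Cfsg Subgroup Module Cfsg.Agent.Lib Cfsg.Agent.Lib.CharBasic Cfsg.Agent.Lib.Clifford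
  Cfsg.Agent.Lib.CliffordCorr Cfsg.Agent.Lib.TwoDeg Cfsg.Agent.Lib.MaxDegP
open scoped ComplexConjugate Pointwise commutatorElement

universe u

variable {G : Type u} [Group G]

theorem zero_of_le [Finite G] {θ ψ : G → ℂ} (h1 : IsCharacter G (θ - ψ)) {d e : ℕ} (hd : θ 1 = d)
    (he : ψ 1 = e) (hle : d ≤ e) : θ = ψ := by
  have h3 : ((θ - ψ) 1).re ≤ 0 := by
    rw [Pi.sub_apply, hd, he]
    have : (d : ℝ) ≤ e := by exact_mod_cast hle
    simpa using this
  funext x
  have := Garrison.zero_of_deg h1 h3 x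
  rw [Pi.sub_apply] at this
  exact sub_eq_zero.1 this

/-- an irreducible character of maximal degree of a subgroup extends -/
theorem res_eq [Finite G] {b : ℕ} (h : SD (b + 1) G) (H : Subgroup G) [Fintype H] {ψ : H → ℂ}
    (hψ : IsIrrCharacter H ψ) (hb : ψ 1 = b) {χ : G → ℂ} (hχ : IsIrrCharacter G χ)
    (hne : classInner (fun x : H => χ x) ψ ≠ 0) : (fun x : H => χ x) = ψ := by
  have h1 := (hχ.isCharacter.restrict H).sub_constituent hψ hne
  obtain ⟨d, hd, hd1⟩ := hχ.exists_degree
  have h2 := h χ hχ d hd1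
  exact zero_of_le h1 (d := d) (by exact hd1) hb (by omega)

/-- **Key lemma**: an irreducible character of maximal degree of a subgroup vanishes off the core. -/
theorem conj_mem [Fintype G] {b : ℕ} (h : SD (b + 1) G) (H : Subgroup G) {ψ : H → ℂ}
    (hψ : IsIrrCharacter H ψ) (hb : ψ 1 = b) {x : H} (hx : ψ x ≠ 0) (g : G) : g⁻¹ * x * g ∈ H := by
  classical
  letI := Fintype.ofFinite H
  obtain ⟨χ, hχ, hne⟩ := exists_over H hψ
  have hres := res_eq h H hψ hb hχ hne
  set c : G → ℕ := fun g => (Finset.univ.filter (fun t : G => t⁻¹ * g * t ∈ H)).card with hc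
  set K : ℂ := (Nat.card H : ℂ) with hK
  have hK0 : K ≠ 0 := by rw [hK]; exact_mod_cast Nat.card_pos.ne'
  have hpi : ∀ g : G, indFun H ψ g = K⁻¹ * (c g : ℂ) * χ g := by
    intro g
    have h1 := congrFun (IndFun.indFun_mul_res H (1 : H → ℂ) χ hχ.isClassFunction) g
    have h2 : (fun h : H => (1 : H → ℂ) h * χ h) = ψ := by
      rw [← hres]; funext y; simp
    rw [h2] at h1
    rw [h1]
    congr 1
    rw [IndFun.indFun_apply]
    congr 1
    have h3 : ∀ t : G, extendByZero H (1 : H → ℂ) (t⁻¹ * g * t) = if t⁻¹ * g * t ∈ H then 1 else 0 := by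
      intro t
      split_ifs with h4
      · rw [IndFun.extendByZero_mem H _ h4]; rfl
      · rw [IndFun.extendByZero_not_mem H _ h4]
    simp only [h3]
    rw [Finset.sum_boole]
  have hA : classInner (indFun H ψ) χ = 1 := by
    rw [IndFun.frobenius_reciprocity H _ _ hχ.isClassFunction, hres, hψ.classInner_self]
  have hcoef : ∀ ρ : IrrCharacter G, classInner (indFun H ψ) (ρ : G → ℂ) = 0 ∨
      (classInner (indFun H ψ) (ρ : G → ℂ) = 1 ∧ (ρ : G → ℂ) 1 = b) := by
    intro ρ
    rw [IndFun.frobenius_reciprocity H _ _ ρ.2.isClassFunction]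
    by_cases h0 : classInner ψ (fun x : H => (ρ : G → ℂ) x) = 0
    · exact Or.inl h0
    · right
      have h1 : classInner (fun x : H => (ρ : G → ℂ) x) ψ ≠ 0 := by
        intro h2
        apply h0
        rw [← conj_classInner, h2, map_zero]
      have h2 := res_eq h H hψ hb ρ.2 h1
      refine ⟨by rw [h2, hψ.classInner_self], ?_⟩
      have h3 := congrFun h2 1
      rw [hb] at h3
      exact h3
  have hcl : IsClassFunction G (indFun H ψ) := IndFun.indFun_isClassFunction H ψ
  have hsum : ∑ ρ : IrrCharacter G, classInner (indFun H ψ) (ρ : G → ℂ) = (H.index : ℂ) := by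
    have h1 := hcl.expansion_apply 1
    rw [IndFun.indFun_one, hb] at h1
    have h2 : ∑ ρ : IrrCharacter G, classInner (indFun H ψ) (ρ : G → ℂ) * (ρ : G → ℂ) 1 =
        (∑ ρ : IrrCharacter G, classInner (indFun H ψ) (ρ : G → ℂ)) * b := by
      rw [Finset.sum_mul]
      refine Finset.sum_congr rfl fun ρ _ => ?_
      rcases hcoef ρ with h3 | ⟨h3, h4⟩
      · rw [h3, zero_mul, zero_mul]
      · rw [h4]
    rw [h2] at h1
    have hb0 : (b : ℂ) ≠ 0 := by rw [← hb]; exact hψ.one_ne_zero
    exact (mul_right_cancel₀ hb0 h1).symm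
  have hB : classInner (indFun H ψ) (indFun H ψ) = (H.index : ℂ) := by
    rw [hcl.classInner_eq_sum, ← hsum]
    refine Finset.sum_congr rfl fun ρ _ => ?_
    rcases hcoef ρ with h3 | ⟨h3, h4⟩
    · rw [h3, zero_mul]
    · rw [h3, map_one, mul_one]
  have hG0 : (Nat.card G : ℂ) ≠ 0 := by exact_mod_cast Nat.card_pos.ne'
  have hA' : ∑ g : G, (c g : ℝ) * ‖χ g‖ ^ 2 = (Nat.card H : ℝ) * Nat.card G := by
    rw [classInner_def, inv_mul_eq_iff_eq_mul₀ hG0, mul_one] at hA
    have h1 : ∑ g : G, indFun H ψ g * conj (χ g) = K⁻¹ * ∑ g : G, (((c g : ℝ) * ‖χ g‖ ^ 2 : ℝ) : ℂ) := by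
      rw [Finset.mul_sum]
      refine Finset.sum_congr rfl fun g _ => ?_
      rw [hpi g, mul_assoc, Complex.mul_conj, Complex.normSq_eq_norm_sq]
      push_cast
      ring
    rw [h1, inv_mul_eq_iff_eq_mul₀ hK0, ← Complex.ofReal_sum, hK] at hA
    exact_mod_cast hA
  have hB' : ∑ g : G, (c g : ℝ) ^ 2 * ‖χ g‖ ^ 2 = (Nat.card H : ℝ) * Nat.card G * Nat.card G := by
    rw [classInner_def, inv_mul_eq_iff_eq_mul₀ hG0] at hB
    have h1 : ∑ g : G, indFun H ψ g * conj (indFun H ψ g) =
        (K⁻¹ * K⁻¹) * ∑ g : G, (((c g : ℝ) ^ 2 * ‖χ g‖ ^ 2 : ℝ) : ℂ) := by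
      rw [Finset.mul_sum]
      refine Finset.sum_congr rfl fun g _ => ?_
      have h2 : conj (K⁻¹ * (c g : ℂ) * χ g) = K⁻¹ * (c g : ℂ) * conj (χ g) := by
        rw [map_mul, map_mul, map_inv₀, hK, Complex.conj_natCast, Complex.conj_natCast]
      have h3 : χ g * conj (χ g) = ((‖χ g‖ ^ 2 : ℝ) : ℂ) := by
        rw [Complex.mul_conj, Complex.normSq_eq_norm_sq]
      rw [hpi g, h2]
      calc K⁻¹ * (c g : ℂ) * χ g * (K⁻¹ * (c g : ℂ) * conj (χ g)) =
          K⁻¹ * K⁻¹ * ((c g : ℂ) ^ 2 * (χ g * conj (χ g))) := by ring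
        _ = _ := by rw [h3]; push_cast; ring
    rw [h1, ← Complex.ofReal_sum] at hB
    have h2 : (Nat.card G : ℂ) = K * H.index := by
      rw [hK]; exact_mod_cast H.card_mul_index.symm
    have h3 : ((∑ g : G, (c g : ℝ) ^ 2 * ‖χ g‖ ^ 2 : ℝ) : ℂ) = K * (Nat.card G : ℂ) * (Nat.card G : ℂ) := by
      calc ((∑ g : G, (c g : ℝ) ^ 2 * ‖χ g‖ ^ 2 : ℝ) : ℂ) =
          (K * K) * ((K⁻¹ * K⁻¹) * ((∑ g : G, (c g : ℝ) ^ 2 * ‖χ g‖ ^ 2 : ℝ) : ℂ)) := by
            field_simp
        _ = (K * K) * ((Nat.card G : ℂ) * (H.index : ℂ)) := by rw [hB]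
        _ = K * (Nat.card G : ℂ) * (K * H.index) := by ring
        _ = _ := by rw [← h2]
    rw [hK] at h3
    exact_mod_cast h3
  have hcle : ∀ g : G, c g ≤ Nat.card G := by
    intro g
    rw [Nat.card_eq_fintype_card, ← Finset.card_univ]
    exact Finset.card_le_card (Finset.filter_subset _ _)
  have hzero : ∑ g : G, (c g : ℝ) * ((Nat.card G : ℝ) - c g) * ‖χ g‖ ^ 2 = 0 := by
    have h1 : ∀ g : G, (c g : ℝ) * ((Nat.card G : ℝ) - c g) * ‖χ g‖ ^ 2 =
        (Nat.card G : ℝ) * ((c g : ℝ) * ‖χ g‖ ^ 2) - (c g : ℝ) ^ 2 * ‖χ g‖ ^ 2 := fun g => by ring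
    simp only [h1]
    rw [Finset.sum_sub_distrib, ← Finset.mul_sum, hA', hB']
    ring
  have hterm := (Finset.sum_eq_zero_iff_of_nonneg (fun g _ => by
    have h1 : (0 : ℝ) ≤ (Nat.card G : ℝ) - c g := by
      have : (c g : ℝ) ≤ Nat.card G := by exact_mod_cast hcle g
      linarith
    positivity)).1 hzero (x : G) (Finset.mem_univ _)
  have hcx : c x ≠ 0 := by
    rw [hc]
    refine (Finset.card_pos.2 ⟨1, ?_⟩).ne'
    rw [Finset.mem_filter]
    refine ⟨Finset.mem_univ _, ?_⟩
    simpa using x.2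
  have hχx : χ x ≠ 0 := by
    have h1 := congrFun hres x
    intro h2
    exact hx (h1.symm.trans h2)
  have hfull : c x = Nat.card G := by
    rcases mul_eq_zero.1 hterm with h1 | h1
    · rcases mul_eq_zero.1 h1 with h2 | h2
      · exact absurd (by exact_mod_cast h2) hcx
      · have : (c x : ℝ) = Nat.card G := by linarith
        exact_mod_cast this
    · exact absurd (norm_eq_zero.1 (pow_eq_zero_iff (two_ne_zero) |>.1 h1)) hχx
  rw [hc, Nat.card_eq_fintype_card, ← Finset.card_univ] at hfull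
  have h6 := Finset.eq_of_subset_of_card_le (Finset.filter_subset _ _) hfull.ge
  have h7 : g ∈ Finset.univ.filter (fun t : G => t⁻¹ * (x : G) * t ∈ H) := by
    rw [h6]; exact Finset.mem_univ _
  exact (Finset.mem_filter.1 h7).2

/-- the index of the support -/
theorem card_le [Finite G] {H : Subgroup G} {ψ : H → ℂ} (hψ : IsIrrCharacter H ψ) {b : ℕ} (hb : ψ 1 = b)
    (R : Subgroup G) (hv : ∀ x : H, ψ x ≠ 0 → (x : G) ∈ R) : Nat.card H ≤ Nat.card R * (b * b) := by
  classical
  letI := Fintype.ofFinite H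
  letI := Fintype.ofFinite G
  have h1 := hψ.classInner_self
  rw [classInner_def, inv_mul_eq_one₀ (by exact_mod_cast Nat.card_pos.ne')] at h1
  have h2 : ∀ g : H, ψ g * conj (ψ g) = ((‖ψ g‖ ^ 2 : ℝ) : ℂ) := by
    intro g
    rw [Complex.mul_conj, Complex.normSq_eq_norm_sq]
  simp only [h2] at h1
  rw [← Complex.ofReal_sum] at h1
  have h3 : (Nat.card H : ℝ) = ∑ g : H, ‖ψ g‖ ^ 2 := by exact_mod_cast h1
  have h4 : ∑ g : H, ‖ψ g‖ ^ 2 = ∑ g ∈ Finset.univ.filter (fun g : H => (g : G) ∈ R), ‖ψ g‖ ^ 2 := by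
    symm
    apply Finset.sum_subset (Finset.filter_subset _ _)
    intro g _ hg
    have : ψ g = 0 := by
      by_contra hne
      exact hg (Finset.mem_filter.2 ⟨Finset.mem_univ _, hv g hne⟩)
    rw [this, norm_zero]; norm_num
  have h5 : ∑ g ∈ Finset.univ.filter (fun g : H => (g : G) ∈ R), ‖ψ g‖ ^ 2 ≤
      ∑ g ∈ Finset.univ.filter (fun g : H => (g : G) ∈ R), (b * b : ℝ) := by
    refine Finset.sum_le_sum fun g _ => ?_
    have h6 := Garrison.norm_le hψ.isCharacter g
    rw [hb, Complex.natCast_re] at h6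
    have h7 := norm_nonneg (ψ g)
    nlinarith
  have h6 : (Finset.univ.filter (fun g : H => (g : G) ∈ R)).card ≤ Nat.card R := by
    rw [Nat.card_eq_fintype_card, ← Finset.card_univ]
    refine Finset.card_le_card_of_injOn (fun g => if h : (g : G) ∈ R then ⟨g, h⟩ else 1)
      (fun _ _ => Finset.mem_univ _) ?_
    intro x hx y hy hxy
    have hx' := (Finset.mem_filter.1 hx).2
    have hy' := (Finset.mem_filter.1 hy).2
    simp only [dif_pos hx', dif_pos hy'] at hxy
    exact Subtype.ext (congrArg (fun r : R => (r : G)) hxy)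
  rw [Finset.sum_const, nsmul_eq_mul] at h5
  have h7 : (Nat.card H : ℝ) ≤ ((Nat.card R * (b * b) : ℕ) : ℝ) := by
    rw [h3, h4]
    refine h5.trans ?_
    push_cast
    have : ((Finset.univ.filter (fun g : H => (g : G) ∈ R)).card : ℝ) ≤ Nat.card R := by exact_mod_cast h6
    nlinarith [mul_nonneg (Nat.cast_nonneg (α := ℝ) b) (Nat.cast_nonneg (α := ℝ) b)]
  exact_mod_cast h7

/-- a normal subgroup with nonabelian quotient has degrees at most `b/2` -/
theorem half [Finite G] {b : ℕ} (h : SD (b + 1) G) (N : Subgroup G) [N.Normal] (hN : ¬ commutator G ≤ N) :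
    SD (b / 2 + 1) N := by
  classical
  letI := Fintype.ofFinite G
  letI := Fintype.ofFinite N
  intro θ hθ d hd
  by_contra hlt
  push Not at hlt
  obtain ⟨χ, hχ, hne⟩ := exists_over N hθ
  obtain ⟨m, hm, hm1⟩ := hχ.exists_degree
  have h1 := dvd_of_over N hθ hχ hne hd hm1
  have h2 := h χ hχ m hm1
  have h3 : m = d := by
    obtain ⟨k, rfl⟩ := h1
    have hk0 : k ≠ 0 := by rintro rfl; simp at hm
    have hk1 : ¬ 2 ≤ k := by
      intro hk
      have : d * 2 ≤ d * k := Nat.mul_le_mul_left _ hk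
      omega
    have : k = 1 := by omega
    rw [this, mul_one]
  have h4 : (fun n : N => χ n) = θ :=
    zero_of_le ((hχ.isCharacter.restrict N).sub_constituent hθ hne) (d := m) (by exact hm1) hd (by omega)
  obtain ⟨β, hβN, hβ1⟩ := GalConj.exists_nonlin hN
  have h5 := ((CanonExt.bijOn hθ hχ (fun n => congrFun h4 n)).mapsTo
    ⟨β.2, fun n => GalConj.mem_K.1 (hβN n.2)⟩).1
  obtain ⟨e, he, he1⟩ := β.2.exists_degree
  have he2 : e ≠ 1 := by
    rintro rfl
    exact hβ1 (by rw [he1]; simp)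
  have h6 := h _ h5 (e * m) (by
    show (β : G → ℂ) 1 * χ 1 = _
    rw [he1, hm1]; push_cast; rfl)
  have h7 : 2 * m ≤ e * m := Nat.mul_le_mul_right _ (by omega)
  omega

theorem deg_triv [Finite G] : charDegree ((one G : IrrCharacter G) : G → ℂ) = 1 := by
  have h1 := BlockDeg.charDegree_cast_irr (one G)
  have h2 : ((one G : IrrCharacter G) : G → ℂ) 1 = 1 := rfl
  rw [h2] at h1
  exact_mod_cast h1

/-- an element with a small class -/
theorem exists_small [Finite G] [Nontrivial G] {b : ℕ} (h : SD (b + 1) G) :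
    ∃ x : G, x ≠ 1 ∧ (centralizer ({x} : Set G)).index ≤ b * b := by
  classical
  letI := Fintype.ofFinite G
  by_contra hcon
  push Not at hcon
  set k := Fintype.card (IrrCharacter G) with hk
  -- k |G| = sum of the orders of centralizers
  have h1 : ∑ x : G, (Nat.card (centralizer ({x} : Set G)) : ℝ) = (k : ℝ) * Nat.card G := by
    have h2 : ∀ x : G, (Nat.card (centralizer ({x} : Set G)) : ℝ) = ∑ χ : IrrCharacter G, ‖(χ : G → ℂ) x‖ ^ 2 :=
      fun x => (sum_cent x).symm
    simp only [h2]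
    rw [Finset.sum_comm]
    have h3 : ∀ χ : IrrCharacter G, ∑ x : G, ‖(χ : G → ℂ) x‖ ^ 2 = (Nat.card G : ℝ) := by
      intro χ
      have h1 := χ.2.classInner_self
      rw [classInner_def, inv_mul_eq_one₀ (by exact_mod_cast Nat.card_pos.ne')] at h1
      have h2 : ∀ g : G, (χ : G → ℂ) g * conj ((χ : G → ℂ) g) = ((‖(χ : G → ℂ) g‖ ^ 2 : ℝ) : ℂ) := by
        intro g
        rw [Complex.mul_conj, Complex.normSq_eq_norm_sq]
      simp only [h2] at h1
      rw [← Complex.ofReal_sum] at h1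
      exact_mod_cast h1.symm
    simp only [h3]
    rw [Finset.sum_const, Finset.card_univ, nsmul_eq_mul]
  have h1' : ∑ x : G, Nat.card (centralizer ({x} : Set G)) = k * Nat.card G := by exact_mod_cast h1
  have h2 : b * b * (k * Nat.card G) + (Nat.card G - 1) ≤ b * b * Nat.card G + (Nat.card G - 1) * Nat.card G := by
    rw [← h1', ← Finset.add_sum_erase _ _ (Finset.mem_univ (1 : G)), Nat.mul_add, add_assoc]
    have h3 : Nat.card (centralizer ({(1 : G)} : Set G)) ≤ Nat.card G :=
      Nat.le_of_dvd Nat.card_pos (Subgroup.card_subgroup_dvd_card _)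
    refine Nat.add_le_add (Nat.mul_le_mul_left _ h3) ?_
    rw [Finset.mul_sum]
    have h4 : Nat.card G - 1 = (Finset.univ.erase (1 : G)).card := by
      rw [Finset.card_erase_of_mem (Finset.mem_univ _), Finset.card_univ, Nat.card_eq_fintype_card]
    have h5 : ∑ x ∈ Finset.univ.erase (1 : G), (b * b * Nat.card (centralizer ({x} : Set G)) + 1) ≤
        (Nat.card G - 1) * Nat.card G := by
      conv_rhs => rw [h4, ← smul_eq_mul]
      refine Finset.sum_le_card_nsmul _ _ _ fun x hx => ?_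
      have h6 := hcon x (Finset.mem_erase.1 hx).1
      have h7 := (centralizer ({x} : Set G)).card_mul_index
      have h8 : 0 < Nat.card (centralizer ({x} : Set G)) := Nat.card_pos
      rw [← h7, mul_comm (b * b)]
      exact Nat.mul_lt_mul_of_pos_left h6 h8
    rw [Finset.sum_add_distrib, Finset.sum_const, smul_eq_mul, mul_one, ← h4] at h5
    exact h5
  -- |G| ≤ 1 + (k-1) b²
  have h3 : Nat.card G ≤ 1 + (k - 1) * (b * b) := by
    rw [← sum_sq, ← Finset.add_sum_erase _ _ (Finset.mem_univ (one G)), deg_triv, one_pow]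
    apply Nat.add_le_add_left
    have h4 : k - 1 = (Finset.univ.erase (one G)).card := by
      rw [Finset.card_erase_of_mem (Finset.mem_univ _), Finset.card_univ]
    rw [h4, ← smul_eq_mul]
    refine Finset.sum_le_card_nsmul _ _ _ fun χ _ => ?_
    have h5 := h χ χ.2 _ (BlockDeg.charDegree_cast_irr χ).symm
    rw [sq]
    exact Nat.mul_le_mul (by omega) (by omega)
  have hk1 : 1 ≤ k := by
    rw [hk]; exact Fintype.card_pos_iff.2 ⟨one G⟩
  have hG1 : 1 < Nat.card G := Finite.one_lt_card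
  obtain ⟨k', hk'⟩ : ∃ k', k = k' + 1 := ⟨k - 1, by omega⟩
  obtain ⟨n, hn⟩ : ∃ n, Nat.card G = n + 1 := ⟨Nat.card G - 1, by omega⟩
  rw [hk', hn] at h2 h3
  rw [Nat.add_sub_cancel] at h2 h3
  have h4 : n ≤ k' * (b * b) := by omega
  have h5 : n * (n + 1) ≤ k' * (b * b) * (n + 1) := Nat.mul_le_mul_right _ h4
  have h6 : 0 < n := by omega
  nlinarith

/-- a fully ramified character when the centre is nontrivial -/
theorem exists_fully [Finite G] (hU : ∀ M : Subgroup G, M.Normal → M ≠ ⊥ → commutator G ≤ M)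
    (hne : commutator G ≠ ⊥) (hZ : center G ≠ ⊥) :
    ∃ φ : IrrCharacter G, (φ : G → ℂ) 1 ≠ 1 ∧ ∀ x, x ∉ center G → (φ : G → ℂ) x = 0 := by
  classical
  have hle : commutator G ≤ center G := hU _ inferInstance hZ
  obtain ⟨φ, -, h1⟩ := GalConj.exists_nonlin (N := (⊥ : Subgroup G)) (fun h => hne (le_bot_iff.1 h))
  refine ⟨φ, h1, fun x hx => ?_⟩
  have hK : GalConj.K φ = ⊥ := by
    by_contra hK
    exact h1 (GalConj.lin_of_ker (hU _ inferInstance hK))
  rw [Subgroup.mem_center_iff] at hx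
  push Not at hx
  obtain ⟨y, hy⟩ := hx
  have h2 : y * x * y⁻¹ * x⁻¹ ∈ commutator G := by
    have : y * x * y⁻¹ * x⁻¹ = ⁅y, x⁆ := rfl
    rw [this]
    exact Subgroup.commutator_mem_commutator (Subgroup.mem_top _) (Subgroup.mem_top _)
  apply GalConj.vanish φ.2 (hle h2)
  intro h3
  have h4 : y * x * y⁻¹ * x⁻¹ ∈ GalConj.K φ := GalConj.mem_K.2 h3
  rw [hK, Subgroup.mem_bot] at h4
  apply hy
  have := mul_inv_eq_one.1 h4
  exact mul_inv_eq_iff_eq_mul.1 this

/-- the preimage of the centre of a quotient with a fully ramified character has smaller degrees -/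
theorem center_case [Finite G] {b : ℕ} (h : SD (b + 1) G) (N : Subgroup G) [N.Normal]
    (φ : IrrCharacter (G ⧸ N)) (h1 : (φ : (G ⧸ N) → ℂ) 1 ≠ 1)
    (hv : ∀ x, x ∉ center (G ⧸ N) → (φ : (G ⧸ N) → ℂ) x = 0) :
    SD b ((center (G ⧸ N)).comap (QuotientGroup.mk' N)) ∧
      ((center (G ⧸ N)).comap (QuotientGroup.mk' N)).index ≤ b * b := by
  classical
  letI := Fintype.ofFinite G
  set Z := (center (G ⧸ N)).comap (QuotientGroup.mk' N) with hZ
  letI := Fintype.ofFinite Z
  have hidx : Z.index = (center (G ⧸ N)).index := by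
    rw [hZ, Subgroup.index_comap_of_surjective _ (QuotientGroup.mk'_surjective N)]
  obtain ⟨e, he, he1⟩ := φ.2.exists_degree
  have he2 : e ≠ 1 := by
    rintro rfl
    exact h1 (by rw [he1]; simp)
  have hful := GalConj.fully φ.2 hv
  rw [he1, ← hidx] at hful
  have hful' : e * e = Z.index := by exact_mod_cast hful
  have hinf := φ.2.inflate N
  have heb := h _ hinf e he1
  constructor
  · intro ψ hψ d hd
    have hdb := h.sub Z ψ hψ d hd
    by_contra hlt
    have hdb' : d = b := by omega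
    subst hdb'
    obtain ⟨χ, hχ, hne⟩ := exists_over Z hψ
    have hres := res_eq h Z hψ hd hχ hne
    have hirr : IsIrrCharacter G (χ * fun g : G => (φ : (G ⧸ N) → ℂ) (g : G ⧸ N)) := by
      apply isIrr_of_isCharacter_of_norm_one (hχ.isCharacter.mul hinf.isCharacter)
      rw [classInner_def, inv_mul_eq_one₀ (by exact_mod_cast Nat.card_pos.ne')]
      have h2 : ∀ g : G, (χ * fun g : G => (φ : (G ⧸ N) → ℂ) (g : G ⧸ N)) g *
          conj ((χ * fun g : G => (φ : (G ⧸ N) → ℂ) (g : G ⧸ N)) g) =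
          if g ∈ Z then χ g * conj (χ g) * Z.index else 0 := by
        intro g
        rw [Pi.mul_apply, map_mul]
        split_ifs with hg
        · have h3 := GalConj.norm_center φ.2 (z := (g : G ⧸ N)) hg
          rw [he1, ← Nat.cast_mul, hful'] at h3
          have h33 : χ g * (φ : (G ⧸ N) → ℂ) (g : G ⧸ N) * (conj (χ g) * conj ((φ : (G ⧸ N) → ℂ) (g : G ⧸ N))) =
              χ g * conj (χ g) * ((φ : (G ⧸ N) → ℂ) (g : G ⧸ N) * conj ((φ : (G ⧸ N) → ℂ) (g : G ⧸ N))) := by ring
          rw [h33, h3]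
        · have h3 : (φ : (G ⧸ N) → ℂ) (g : G ⧸ N) = 0 := hv _ hg
          rw [h3]; simp
      simp only [h2]
      rw [← Finset.sum_filter, ← Finset.sum_mul]
      have h4 : ∑ g ∈ Finset.univ.filter (fun g : G => g ∈ Z), χ g * conj (χ g) = ∑ z : Z, ψ z * conj (ψ z) := by
        rw [Finset.sum_subtype (p := fun g => g ∈ Z) _ (by intro x; simp)]
        refine Finset.sum_congr rfl fun z _ => ?_
        have h44 : χ z = ψ z := congrFun hres z
        rw [h44]
      have h5 := hψ.classInner_self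
      rw [classInner_def, inv_mul_eq_one₀ (by exact_mod_cast Nat.card_pos.ne')] at h5
      rw [h4, ← h5]
      exact_mod_cast Z.card_mul_index.symm
    have hdeg : χ 1 = d := by
      have := congrFun hres 1
      rw [hd] at this
      exact this
    have h6 := h _ hirr (d * e) (by
      rw [Pi.mul_apply, hdeg]
      have : (φ : (G ⧸ N) → ℂ) ((1 : G) : G ⧸ N) = e := he1
      rw [this]; push_cast; rfl)
    have hd0 : d ≠ 0 := by
      rintro rfl
      exact hψ.one_ne_zero (by rw [hd]; simp)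
    have h7 : d * 2 ≤ d * e := Nat.mul_le_mul_left _ (by omega)
    omega
  · rw [← hful']
    exact Nat.mul_le_mul (by omega) (by omega)

section Ab

theorem conj_D (g h : G) : ∃ d ∈ commutator G, h⁻¹ * g * h = g * d := by
  refine ⟨g⁻¹ * h⁻¹ * g * h, ?_, by group⟩
  have : g⁻¹ * h⁻¹ * g * h = ⁅g⁻¹, h⁻¹⁆ := by rw [commutatorElement_def]; group
  rw [this]
  exact Subgroup.commutator_mem_commutator (Subgroup.mem_top _) (Subgroup.mem_top _)

theorem fixD_normal (hab : ∀ x ∈ commutator G, ∀ y ∈ commutator G, x * y = y * x) (g : G) :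
    (commutator G ⊓ centralizer ({g} : Set G)).Normal := by
  refine ⟨fun n hn h => ?_⟩
  obtain ⟨hn1, hn2⟩ := Subgroup.mem_inf.1 hn
  refine Subgroup.mem_inf.2 ⟨(inferInstance : (commutator G).Normal).conj_mem n hn1 h, ?_⟩
  rw [Subgroup.mem_centralizer_singleton_iff] at hn2 ⊢
  obtain ⟨d, hd, hd1⟩ := conj_D g h
  have h1 : n * (h⁻¹ * g * h) = (h⁻¹ * g * h) * n := by
    rw [hd1, ← mul_assoc, hn2, mul_assoc, hab n hn1 d hd, mul_assoc]
  calc h * n * h⁻¹ * g = h * (n * (h⁻¹ * g * h)) * h⁻¹ := by group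
    _ = h * ((h⁻¹ * g * h) * n) * h⁻¹ := by rw [h1]
    _ = g * (h * n * h⁻¹) := by group

theorem fixD_bot (hU : ∀ M : Subgroup G, M.Normal → M ≠ ⊥ → commutator G ≤ M)
    (hab : ∀ x ∈ commutator G, ∀ y ∈ commutator G, x * y = y * x) {g : G}
    (hg : g ∉ centralizer ((commutator G : Subgroup G) : Set G)) :
    commutator G ⊓ centralizer ({g} : Set G) = ⊥ := by
  by_contra hne
  apply hg
  have h1 := hU _ (fixD_normal hab g) hne
  rw [Subgroup.mem_centralizer_iff]
  intro x hx
  have h2 := (Subgroup.mem_inf.1 (h1 hx)).2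
  rw [Subgroup.mem_centralizer_singleton_iff] at h2
  exact h2

theorem surj [Finite G] (hU : ∀ M : Subgroup G, M.Normal → M ≠ ⊥ → commutator G ≤ M)
    (hab : ∀ x ∈ commutator G, ∀ y ∈ commutator G, x * y = y * x) {g : G}
    (hg : g ∉ centralizer ((commutator G : Subgroup G) : Set G)) :
    ∀ c ∈ commutator G, ∃ z ∈ commutator G, z⁻¹ * (g * z * g⁻¹) = c := by
  have hn : ∀ z : commutator G, (z : G)⁻¹ * (g * z * g⁻¹) ∈ commutator G := fun z =>
    Subgroup.mul_mem _ (Subgroup.inv_mem _ z.2) ((inferInstance : (commutator G).Normal).conj_mem _ z.2 g)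
  have hinj : Function.Injective (fun z : commutator G =>
      (⟨(z : G)⁻¹ * (g * z * g⁻¹), hn z⟩ : commutator G)) := by
    intro z w hzw
    have h1 : (z : G)⁻¹ * (g * z * g⁻¹) = (w : G)⁻¹ * (g * w * g⁻¹) := congrArg Subtype.val hzw
    have h2 : (z : G) * (w : G)⁻¹ ∈ commutator G ⊓ centralizer ({g} : Set G) := by
      refine Subgroup.mem_inf.2 ⟨Subgroup.mul_mem _ z.2 (Subgroup.inv_mem _ w.2), ?_⟩
      rw [Subgroup.mem_centralizer_singleton_iff]
      have h3 : g * z * g⁻¹ = z * ((w : G)⁻¹ * (g * w * g⁻¹)) := by rw [← h1]; group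
      calc (z : G) * (w : G)⁻¹ * g = z * ((w : G)⁻¹ * (g * w * g⁻¹)) * (g * (w : G)⁻¹ * g⁻¹) * g := by group
        _ = (g * z * g⁻¹) * (g * (w : G)⁻¹ * g⁻¹) * g := by rw [← h3]
        _ = g * (z * (w : G)⁻¹) := by group
    rw [fixD_bot hU hab hg, Subgroup.mem_bot] at h2
    exact Subtype.ext (mul_inv_eq_one.1 h2)
  have hsurj := Finite.injective_iff_surjective.1 hinj
  intro c hc
  obtain ⟨z, hz⟩ := hsurj ⟨c, hc⟩
  exact ⟨z, z.2, congrArg Subtype.val hz⟩

theorem F_comm [Finite G] (hU : ∀ M : Subgroup G, M.Normal → M ≠ ⊥ → commutator G ≤ M)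
    (hne : commutator G ≠ ⊥) (hZ : center G = ⊥)
    (hab : ∀ x ∈ commutator G, ∀ y ∈ commutator G, x * y = y * x) :
    ∀ x ∈ centralizer ((commutator G : Subgroup G) : Set G),
      ∀ y ∈ centralizer ((commutator G : Subgroup G) : Set G), x * y = y * x := by
  have hex : ∃ g : G, g ∉ centralizer ((commutator G : Subgroup G) : Set G) := by
    by_contra hcon
    push Not at hcon
    apply hne
    rw [eq_bot_iff, ← hZ]
    intro x hx
    rw [Subgroup.mem_center_iff]
    intro g
    exact ((Subgroup.mem_centralizer_iff.1 (hcon g)) x hx).symm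
  obtain ⟨g, hg⟩ := hex
  set F := centralizer ((commutator G : Subgroup G) : Set G) with hF
  have hFn : F.Normal := inferInstance
  -- decomposition
  have hdec : ∀ y ∈ F, ∃ z ∈ commutator G, ∃ w ∈ F, y = w * z ∧ g * w = w * g := by
    intro y hy
    have h1 : y⁻¹ * (g * y * g⁻¹) ∈ commutator G := by
      have : y⁻¹ * (g * y * g⁻¹) = ⁅y⁻¹, g⁆ := by rw [commutatorElement_def]; group
      rw [this]
      exact Subgroup.commutator_mem_commutator (Subgroup.mem_top _) (Subgroup.mem_top _)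
    obtain ⟨z, hz, hz1⟩ := surj hU hab hg _ h1
    have hzF : z ∈ F := by
      rw [hF, Subgroup.mem_centralizer_iff]
      intro x hx
      exact hab x hx z hz
    refine ⟨z, hz, y * z⁻¹, Subgroup.mul_mem _ hy (Subgroup.inv_mem _ hzF), by group, ?_⟩
    have h2 : g * y * g⁻¹ = y * (z⁻¹ * (g * z * g⁻¹)) := by rw [hz1]; group
    have h3 : g * (y * z⁻¹) * g⁻¹ = y * z⁻¹ := by
      calc g * (y * z⁻¹) * g⁻¹ = (g * y * g⁻¹) * (g * z⁻¹ * g⁻¹) := by group
        _ = y * (z⁻¹ * (g * z * g⁻¹)) * (g * z⁻¹ * g⁻¹) := by rw [← h2]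
        _ = y * z⁻¹ := by group
    calc g * (y * z⁻¹) = (g * (y * z⁻¹) * g⁻¹) * g := by group
      _ = y * z⁻¹ * g := by rw [h3]
  have hww : ∀ w ∈ F, ∀ v ∈ F, g * w = w * g → g * v = v * g → w * v = v * w := by
    intro w hw v hv h1 h2
    have h3 : w * v * w⁻¹ * v⁻¹ ∈ commutator G ⊓ centralizer ({g} : Set G) := by
      refine Subgroup.mem_inf.2 ⟨?_, ?_⟩
      · have : w * v * w⁻¹ * v⁻¹ = ⁅w, v⁆ := rfl
        rw [this]
        exact Subgroup.commutator_mem_commutator (Subgroup.mem_top _) (Subgroup.mem_top _)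
      · have h4 : w ∈ centralizer ({g} : Set G) := Subgroup.mem_centralizer_singleton_iff.2 h1.symm
        have h5 : v ∈ centralizer ({g} : Set G) := Subgroup.mem_centralizer_singleton_iff.2 h2.symm
        exact Subgroup.mul_mem _ (Subgroup.mul_mem _ (Subgroup.mul_mem _ h4 h5) (Subgroup.inv_mem _ h4))
          (Subgroup.inv_mem _ h5)
    rw [fixD_bot hU hab hg, Subgroup.mem_bot] at h3
    exact mul_inv_eq_iff_eq_mul.1 (mul_inv_eq_one.1 h3)
  intro x hx y hy
  obtain ⟨z, hz, w, hw, rfl, hwg⟩ := hdec x hx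
  obtain ⟨z', hz', w', hw', rfl, hwg'⟩ := hdec y hy
  have h1 : z * w' = w' * z := (Subgroup.mem_centralizer_iff.1 hw') z hz
  have h2 : z' * w = w * z' := (Subgroup.mem_centralizer_iff.1 hw) z' hz'
  have h3 := hab z hz z' hz'
  have h4 := hww w hw w' hw' hwg hwg'
  calc w * z * (w' * z') = w * (z * w') * z' := by group
    _ = w * w' * (z * z') := by rw [h1]; group
    _ = w' * w * (z' * z) := by rw [h4, h3]
    _ = w' * (w * z') * z := by group
    _ = w' * z' * (w * z) := by rw [← h2]; group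

theorem F_index [Finite G] {b : ℕ} (h : SD (b + 1) G)
    (hU : ∀ M : Subgroup G, M.Normal → M ≠ ⊥ → commutator G ≤ M)
    (hne : commutator G ≠ ⊥)
    (hab : ∀ x ∈ commutator G, ∀ y ∈ commutator G, x * y = y * x) :
    (centralizer ((commutator G : Subgroup G) : Set G)).index ≤ b := by
  classical
  letI := Fintype.ofFinite G
  letI := Fintype.ofFinite (commutator G)
  obtain ⟨d, hd⟩ := (Subgroup.ne_bot_iff_exists_ne_one.1 hne)
  obtain ⟨lam, hlam⟩ : ∃ lam : IrrCharacter (commutator G), (lam : commutator G → ℂ) d ≠ (lam : commutator G → ℂ) 1 := by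
    by_contra hcon
    push Not at hcon
    have := (isConj_iff_forall_irr d 1).2 hcon
    exact hd (isConj_one_left.1 this)
  have hlam1 : (lam : commutator G → ℂ) 1 = 1 :=
    lam.2.one_eq_one_of_comm (fun a b => Subtype.ext (hab a a.2 b b.2))
  obtain ⟨a, ha⟩ := exists_cf lam.2 hlam1
  have hmul : ∀ x y : commutator G, (lam : commutator G → ℂ) (x * y) =
      (lam : commutator G → ℂ) x * (lam : commutator G → ℂ) y := by
    intro x y
    rw [ha]
    show ((ev (x * y) a : ℂˣ) : ℂ) = _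
    rw [ev_mul]
    push_cast
    rfl
  have hle : inertia (commutator G) (lam : commutator G → ℂ) ≤ centralizer ((commutator G : Subgroup G) : Set G) := by
    intro g hg
    by_contra hgF
    apply hlam
    obtain ⟨z, hz, hz1⟩ := surj hU hab hgF d d.2
    rw [mem_inertia'] at hg
    have h1 := hg ⟨z, hz⟩
    have h2 : d = (⟨z, hz⟩ : commutator G)⁻¹ * ⟨g * z * g⁻¹, (inferInstance : (commutator G).Normal).conj_mem z hz g⟩ :=
      Subtype.ext hz1.symm
    rw [h2, hmul, h1, ← hmul, inv_mul_cancel]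
  obtain ⟨χ, hχ, hne⟩ := exists_over (commutator G) lam.2
  obtain ⟨m, hm, hm1⟩ := hχ.exists_degree
  have h1 := degree_clifford hχ lam.2 hne
  obtain ⟨c, hc⟩ := (hχ.isCharacter.restrict (commutator G)).classInner_nat lam.2.isCharacter
  rw [hm1, hc, hlam1, mul_one] at h1
  have h2 : m = c * (inertia (commutator G) (lam : commutator G → ℂ)).index := by exact_mod_cast h1
  have h3 : c ≠ 0 := by rintro rfl; rw [zero_mul] at h2; omega
  have h4 := h χ hχ m hm1
  have h5 : (centralizer ((commutator G : Subgroup G) : Set G)).index ≤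
      (inertia (commutator G) (lam : commutator G → ℂ)).index :=
    Nat.le_of_dvd (Nat.pos_of_ne_zero Subgroup.index_ne_zero_of_finite) (Subgroup.index_dvd_of_le hle)
  have h6 : (inertia (commutator G) (lam : commutator G → ℂ)).index ≤ m := by
    rw [h2]; exact Nat.le_mul_of_pos_left _ (Nat.pos_of_ne_zero h3)
  omega

end Ab

theorem K_vanish_aux [Finite G] {b : ℕ} (h : SD (b + 1) G) (N : Subgroup G) [N.Normal] (F : Subgroup (G ⧸ N))
    (hF : ∀ x ∈ F, ∀ y ∈ F, x * y = y * x) (hZ : center (G ⧸ N) = ⊥) (K : Subgroup G) [hKn : K.Normal]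
    (π : K →* F) (hπs : Function.Surjective π) (hπ : ∀ k : K, ((π k : F) : G ⧸ N) = QuotientGroup.mk' N k)
    {ψ : K → ℂ} (hψ : IsIrrCharacter K ψ) (hb : ψ 1 = b) (x : K) (hx : ψ x ≠ 0) : (x : G) ∈ N := by
  classical
  letI := Fintype.ofFinite G
  letI := Fintype.ofFinite K
  -- every irreducible character of degree b is invariant
  have hinv : ∀ {η : K → ℂ}, IsIrrCharacter K η → η 1 = b → ∀ g : G,
      η ⟨g * x * g⁻¹, hKn.conj_mem x x.2 g⟩ = η x := by
    intro η hη hηb g
    obtain ⟨χ, hχ, hne⟩ := exists_over K hη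
    have hres := res_eq h K hη hηb hχ hne
    have h1 : χ (g * x * g⁻¹) = η ⟨g * x * g⁻¹, hKn.conj_mem x x.2 g⟩ :=
      congrFun hres ⟨g * x * g⁻¹, hKn.conj_mem x x.2 g⟩
    have h2 : χ x = η x := congrFun hres x
    rw [← h1, ← h2]
    exact hχ.isClassFunction x g
  have key : ∀ g : G, (QuotientGroup.mk' N) (g * x * g⁻¹) = (QuotientGroup.mk' N) x := by
    intro g
    have hc : IsConj (π ⟨g * x * g⁻¹, hKn.conj_mem x x.2 g⟩) (π x) := by
      rw [isConj_iff_forall_irr]
      intro lam
      have hlam1 : (lam : F → ℂ) 1 = 1 :=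
        lam.2.one_eq_one_of_comm (fun a b => Subtype.ext (hF a a.2 b b.2))
      have h1 : IsIrrCharacter K (fun k => (lam : F → ℂ) (π k)) := lam.2.comp_surjective π hπs
      have h2 : (fun k => (lam : F → ℂ) (π k)) 1 = 1 := by
        show (lam : F → ℂ) (π 1) = 1
        rw [map_one, hlam1]
      have h3 : IsIrrCharacter K (ψ * fun k => (lam : F → ℂ) (π k)) := hψ.mul_linear h1.isCharacter h2
      have h4 := hinv h3 (by
        show ψ 1 * (lam : F → ℂ) (π 1) = _
        rw [map_one, hlam1, hb, mul_one]) g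
      have h5 := hinv hψ hb g
      rw [Pi.mul_apply, Pi.mul_apply, h5] at h4
      exact mul_left_cancel₀ hx h4
    rw [isConj_iff] at hc
    obtain ⟨c, hc⟩ := hc
    have h1 : c * π ⟨g * x * g⁻¹, hKn.conj_mem x x.2 g⟩ * c⁻¹ = π ⟨g * x * g⁻¹, hKn.conj_mem x x.2 g⟩ := by
      rw [mul_inv_eq_iff_eq_mul]
      exact Subtype.ext (hF _ c.2 _ (π _).2)
    rw [h1] at hc
    have h2 := congrArg Subtype.val hc
    rw [hπ, hπ] at h2
    exact h2
  have hcen : (QuotientGroup.mk' N) x ∈ center (G ⧸ N) := by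
    rw [Subgroup.mem_center_iff]
    intro y
    obtain ⟨g, rfl⟩ := QuotientGroup.mk'_surjective N y
    have := key g
    rw [map_mul, map_mul, map_inv, mul_inv_eq_iff_eq_mul] at this
    exact this
  rw [hZ, Subgroup.mem_bot, QuotientGroup.mk'_apply, QuotientGroup.eq_one_iff] at hcen
  exact hcen

theorem K_vanish [Finite G] {b : ℕ} (h : SD (b + 1) G) (N : Subgroup G) [N.Normal] (F : Subgroup (G ⧸ N))
    [hFn : F.Normal] (hF : ∀ x ∈ F, ∀ y ∈ F, x * y = y * x) (hZ : center (G ⧸ N) = ⊥)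
    {ψ : F.comap (QuotientGroup.mk' N) → ℂ} (hψ : IsIrrCharacter (F.comap (QuotientGroup.mk' N)) ψ)
    (hb : ψ 1 = b) (x : F.comap (QuotientGroup.mk' N)) (hx : ψ x ≠ 0) : (x : G) ∈ N := by
  haveI : (F.comap (QuotientGroup.mk' N)).Normal := hFn.comap _
  exact K_vanish_aux h N F hF hZ (F.comap (QuotientGroup.mk' N)) ((QuotientGroup.mk' N).subgroupComap F)
    (MonoidHom.subgroupComap_surjective_of_surjective _ _ (QuotientGroup.mk'_surjective N)) (fun k => rfl) hψ hb x hx

/-- groups with small degrees are solvable -/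
theorem solvable_of_five (n : ℕ) : ∀ (G : Type u) [Group G] [Finite G], Nat.card G = n → SD 5 G →
    Group.IsSolvable G := by
  induction n using Nat.strong_induction_on with
  | _ n ih =>
    intro G _ _ hn h
    classical
    by_cases hex : ∃ p : ℕ, p.Prime ∧ 5 ≤ p ∧ p ∣ Nat.card G
    · obtain ⟨p, hp, hp5, hpd⟩ := hex
      haveI : Fact p.Prime := ⟨hp⟩
      obtain ⟨P⟩ : Nonempty (Sylow p G) := inferInstance
      have hP := normal_sylow p _ G rfl (fun χ hχ d hd => lt_of_lt_of_le (h χ hχ d hd) hp5) P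
      have hPb := P.ne_bot_of_dvd_card hpd
      have hs1 : Group.IsSolvable (P : Subgroup G) := by
        haveI : Group.IsNilpotent (P : Subgroup G) := P.2.isNilpotent
        infer_instance
      have hs2 : Group.IsSolvable (G ⧸ (P : Subgroup G)) := by
        apply ih (Nat.card (G ⧸ (P : Subgroup G))) _ _ rfl (h.quot _)
        rw [← hn, ← (P : Subgroup G).card_mul_index]
        have h1 : Nat.card (P : Subgroup G) ≠ 1 := fun h' => hPb (Subgroup.card_eq_one.1 h')
        have h2 : (P : Subgroup G).index ≠ 0 := Subgroup.index_ne_zero_of_finite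
        have h3 : 0 < Nat.card (P : Subgroup G) := Nat.card_pos
        have h4 : 1 < Nat.card (P : Subgroup G) := by omega
        have h5 : Nat.card (G ⧸ (P : Subgroup G)) = (P : Subgroup G).index := rfl
        rw [h5]
        exact (Nat.lt_mul_iff_one_lt_left (by omega)).2 h4
      exact Group.isSolvable_of_ker_le_range (P : Subgroup G).subtype (QuotientGroup.mk' (P : Subgroup G)) (by
        rw [QuotientGroup.ker_mk', Subgroup.range_subtype])
    · push Not at hex
      obtain ⟨a, m, hm, hma⟩ := Nat.exists_eq_pow_mul_and_not_dvd (Nat.card_pos (α := G)).ne' 2 (by norm_num)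
      have hm0 : m ≠ 0 := by rintro rfl; exact hm (dvd_zero 2)
      have h3 : m = 3 ^ m.primeFactorsList.length := by
        apply Nat.eq_prime_pow_of_unique_prime_dvd hm0
        intro d hd hdm
        have h4 : ¬ 5 ≤ d := fun h' => hex d hd h' (hma ▸ Dvd.dvd.mul_left hdm _)
        have h5 : d ≠ 2 := by rintro rfl; exact hm hdm
        have h6 : d ≠ 4 := by rintro rfl; exact absurd hd (by norm_num)
        have := hd.two_le
        omega
      rw [h3] at hma
      exact Cfsg.Agent.S0144.result 2 3 a _ Nat.prime_two Nat.prime_three hma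

theorem num3 {b : ℕ} (hb : 3 ≤ b) : b * (b * b) * (Nat.factorial (b / 2)) ^ 2 ≤ (Nat.factorial b) ^ 2 := by
  rcases (by omega : b = 3 ∨ 4 ≤ b) with rfl | h4
  · decide
  obtain ⟨c, rfl⟩ : ∃ c, b = c + 2 := ⟨b - 2, by omega⟩
  have h1 : Nat.factorial ((c + 2) / 2) ≤ Nat.factorial c := Nat.factorial_le (by omega)
  have h2 : Nat.factorial (c + 2) = (c + 2) * ((c + 1) * Nat.factorial c) := by
    rw [Nat.factorial_succ, Nat.factorial_succ]
  rw [h2]
  have h3 : (Nat.factorial ((c + 2) / 2)) ^ 2 ≤ (Nat.factorial c) ^ 2 := Nat.pow_le_pow_left h1 2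
  have h5 : (c + 2) * ((c + 2) * (c + 2)) ≤ ((c + 2) * (c + 1)) ^ 2 := by nlinarith
  calc (c + 2) * ((c + 2) * (c + 2)) * (Nat.factorial ((c + 2) / 2)) ^ 2
      ≤ ((c + 2) * (c + 1)) ^ 2 * (Nat.factorial c) ^ 2 := Nat.mul_le_mul h5 h3
    _ = _ := by ring

theorem num5 {b : ℕ} (hb : 5 ≤ b) : (b * b) * (b * b) * (Nat.factorial (b / 2)) ^ 2 ≤ (Nat.factorial b) ^ 2 := by
  obtain ⟨c, rfl⟩ : ∃ c, b = c + 3 := ⟨b - 3, by omega⟩
  have h1 : Nat.factorial ((c + 3) / 2) ≤ Nat.factorial c := Nat.factorial_le (by omega)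
  have h2 : Nat.factorial (c + 3) = (c + 3) * ((c + 2) * ((c + 1) * Nat.factorial c)) := by
    rw [Nat.factorial_succ, Nat.factorial_succ, Nat.factorial_succ]
  rw [h2]
  have h3 : (Nat.factorial ((c + 3) / 2)) ^ 2 ≤ (Nat.factorial c) ^ 2 := Nat.pow_le_pow_left h1 2
  have h4 : (c + 3) * (c + 3) ≤ (c + 3) * ((c + 2) * (c + 1)) := Nat.mul_le_mul_left _ (by nlinarith)
  have h5 : ((c + 3) * (c + 3)) * ((c + 3) * (c + 3)) ≤ ((c + 3) * ((c + 2) * (c + 1))) ^ 2 := by
    rw [sq]; exact Nat.mul_le_mul h4 h4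
  calc ((c + 3) * (c + 3)) * ((c + 3) * (c + 3)) * (Nat.factorial ((c + 3) / 2)) ^ 2
      ≤ ((c + 3) * ((c + 2) * (c + 1))) ^ 2 * (Nat.factorial c) ^ 2 := Nat.mul_le_mul h5 h3
    _ = _ := by ring

theorem num1 {b : ℕ} (hb : 1 ≤ b) : (b * b) * (Nat.factorial (b - 1)) ^ 2 = (Nat.factorial b) ^ 2 := by
  obtain ⟨c, rfl⟩ : ∃ c, b = c + 1 := ⟨b - 1, by omega⟩
  rw [Nat.add_sub_cancel, Nat.factorial_succ]; ring

/-- abelian subgroup with bounded index -/
def AI (G : Type u) [Group G] (m : ℕ) : Prop :=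
  ∃ A : Subgroup G, (∀ x ∈ A, ∀ y ∈ A, x * y = y * x) ∧ A.index ≤ m

theorem AI.up {K : Subgroup G} {m : ℕ} (h : AI K m) : AI G (K.index * m) := by
  obtain ⟨A, hA, hAm⟩ := h
  refine ⟨A.map K.subtype, ?_, ?_⟩
  · rintro _ ⟨x, hx, rfl⟩ _ ⟨y, hy, rfl⟩
    show ((x * y : K) : G) = ((y * x : K) : G)
    rw [hA x hx y hy]
  · rw [Subgroup.index_map_subtype, mul_comm]
    exact Nat.mul_le_mul_left _ hAm

theorem AI.mono {m n : ℕ} (h : AI G m) (hmn : m ≤ n) : AI G n := by
  obtain ⟨A, hA, hAm⟩ := h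
  exact ⟨A, hA, hAm.trans hmn⟩

theorem exists_N [Finite G] (hne : commutator G ≠ ⊥) : ∃ N : Subgroup G, ∃ _ : N.Normal,
    ¬ commutator G ≤ N ∧ (∀ M : Subgroup (G ⧸ N), M.Normal → M ≠ ⊥ → commutator (G ⧸ N) ≤ M) ∧
      commutator (G ⧸ N) ≠ ⊥ := by
  obtain ⟨N, hN⟩ := (Set.toFinite {N : Subgroup G | N.Normal ∧ ¬ commutator G ≤ N}).exists_maximal
    ⟨⊥, (inferInstance : (⊥ : Subgroup G).Normal), fun h => hne (le_bot_iff.1 h)⟩
  haveI := hN.prop.1
  refine ⟨N, hN.prop.1, hN.prop.2, ?_, ?_⟩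
  · intro M hM hMne
    have hMc : (M.comap (QuotientGroup.mk' N)).Normal := hM.comap _
    have hNM : N ≤ M.comap (QuotientGroup.mk' N) := by
      intro n hn
      rw [Subgroup.mem_comap, QuotientGroup.mk'_apply, (QuotientGroup.eq_one_iff n).2 hn]
      exact Subgroup.one_mem _
    have hcl : commutator G ≤ M.comap (QuotientGroup.mk' N) := by
      by_contra hcon
      have h1 := hN.le_of_ge (y := M.comap (QuotientGroup.mk' N)) ⟨hMc, hcon⟩ hNM
      apply hMne
      rw [eq_bot_iff]
      intro y hy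
      obtain ⟨g, rfl⟩ := QuotientGroup.mk'_surjective N y
      have : g ∈ N := h1 hy
      rw [Subgroup.mem_bot, QuotientGroup.mk'_apply, QuotientGroup.eq_one_iff]
      exact this
    refine Subgroup.commutator_le.2 ?_
    intro a _ c _
    obtain ⟨g, rfl⟩ := QuotientGroup.mk'_surjective N a
    obtain ⟨k, rfl⟩ := QuotientGroup.mk'_surjective N c
    rw [← map_commutatorElement]
    exact hcl (Subgroup.commutator_mem_commutator (Subgroup.mem_top g) (Subgroup.mem_top k))
  · intro h0
    apply hN.prop.2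
    refine Subgroup.commutator_le.2 ?_
    intro g _ k _
    rw [← QuotientGroup.eq_one_iff, ← QuotientGroup.mk'_apply, map_commutatorElement, ← Subgroup.mem_bot, ← h0]
    exact Subgroup.commutator_mem_commutator (Subgroup.mem_top _) (Subgroup.mem_top _)

/-- the case `b = 2` -/
theorem case_two [Finite G] (hne : commutator G ≠ ⊥) (h : SD 3 G) : AI G 4 := by
  classical
  letI := Fintype.ofFinite G
  have hG : ∃ a b : G, a * b ≠ b * a := by
    by_contra hcon
    push Not at hcon
    apply hne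
    rw [eq_bot_iff]
    refine Subgroup.commutator_le.2 fun g _ k _ => ?_
    rw [Subgroup.mem_bot, commutatorElement_eq_one_iff_mul_comm]
    exact hcon g k
  have hT : TwoDeg.TwoDeg 2 G := by
    intro χ hχ
    obtain ⟨d, hd, hd1⟩ := hχ.exists_degree
    have h1 := h χ hχ d hd1
    rcases (by omega : d = 1 ∨ d = 2) with rfl | rfl
    · left; rw [hd1]; simp
    · right; rw [hd1]
  have hex : ∃ χ : IrrCharacter G, (χ : G → ℂ) 1 = ((2 : ℕ) : ℂ) := by
    obtain ⟨χ, -, h1⟩ := GalConj.exists_nonlin (N := (⊥ : Subgroup G)) (fun h => hne (le_bot_iff.1 h))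
    exact ⟨χ, (hT χ χ.2).resolve_left h1⟩
  rcases (CdP.main hG 2 Nat.prime_two).1 ⟨hT, hex⟩ with ⟨A, -, hA, hi⟩ | hi
  · exact ⟨A, hA, by rw [hi]; norm_num⟩
  · obtain ⟨a, b, hab⟩ := hG
    have ha : a ∉ center G := fun h' => hab ((Subgroup.mem_center_iff.1 h' b).symm)
    refine ⟨center G ⊔ zpowers a, ?_, ?_⟩
    · intro x hx y hy
      obtain ⟨z, hz, u, hu, rfl⟩ := Subgroup.mem_sup_of_normal_left.1 hx
      obtain ⟨w, hw, v, hv, rfl⟩ := Subgroup.mem_sup_of_normal_left.1 hy
      obtain ⟨i, rfl⟩ := Subgroup.mem_zpowers_iff.1 hu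
      obtain ⟨j, rfl⟩ := Subgroup.mem_zpowers_iff.1 hv
      rw [Subgroup.mem_center_iff] at hz hw
      calc z * a ^ i * (w * a ^ j) = z * (a ^ i * w) * a ^ j := by group
        _ = z * w * (a ^ i * a ^ j) := by rw [hw]; group
        _ = w * z * (a ^ j * a ^ i) := by rw [hw z, (Commute.refl a).zpow_zpow i j]
        _ = w * (z * a ^ j) * a ^ i := by group
        _ = w * a ^ j * (z * a ^ i) := by rw [← hz (a ^ j)]; group
    · have hlt : center G < center G ⊔ zpowers a := by
        refine lt_of_le_of_ne le_sup_left fun h' => ha ?_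
        rw [h']
        exact Subgroup.mem_sup_right (Subgroup.mem_zpowers a)
      have h1 : (center G).relIndex (center G ⊔ zpowers a) * (center G ⊔ zpowers a).index = (center G).index :=
        Subgroup.relIndex_mul_index hlt.le
      rw [hi] at h1
      have h2 : (center G).relIndex (center G ⊔ zpowers a) ≠ 1 := fun h' =>
        hlt.not_ge (Subgroup.relIndex_eq_one.1 h')
      have h3 : (center G).relIndex (center G ⊔ zpowers a) ≠ 0 := by
        intro h'; rw [h', zero_mul] at h1; norm_num at h1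
      have h4 : 2 * (center G ⊔ zpowers a).index ≤
          (center G).relIndex (center G ⊔ zpowers a) * (center G ⊔ zpowers a).index :=
        Nat.mul_le_mul_right _ (by omega)
      rw [h1] at h4
      omega

theorem main (b : ℕ) : ∀ (G : Type u) [Group G] [Finite G], SD (b + 1) G → AI G ((Nat.factorial b) ^ 2) := by
  induction b using Nat.strong_induction_on with
  | _ b ih =>
    intro G _ _ h
    classical
    letI := Fintype.ofFinite G
    have hfac : 1 ≤ (Nat.factorial b) ^ 2 := Nat.one_le_pow _ _ (Nat.factorial_pos b)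
    by_cases hne : commutator G = ⊥
    · refine ⟨⊤, ?_, ?_⟩
      · intro x _ y _
        have h1 : ⁅x, y⁆ ∈ commutator G :=
          Subgroup.commutator_mem_commutator (Subgroup.mem_top x) (Subgroup.mem_top y)
        rw [hne, Subgroup.mem_bot] at h1
        exact commutatorElement_eq_one_iff_mul_comm.1 h1
      · rw [Subgroup.index_top]; exact hfac
    have hb2 : 2 ≤ b := by
      obtain ⟨χ, -, h1⟩ := GalConj.exists_nonlin (N := (⊥ : Subgroup G)) (fun h => hne (le_bot_iff.1 h))
      obtain ⟨d, hd, hd1⟩ := χ.2.exists_degree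
      have h2 := h χ χ.2 d hd1
      have h3 : d ≠ 1 := by
        rintro rfl
        exact h1 (by rw [hd1]; simp)
      omega
    -- a subgroup of small index all of whose degrees are less than `b`
    have hdown : ∀ K : Subgroup G, K.index ≤ b * b → SD b K → AI G ((Nat.factorial b) ^ 2) := by
      intro K hK hSD
      have h1 := ih (b - 1) (by omega) K (by rw [Nat.sub_add_cancel (by omega)]; exact hSD)
      refine h1.up.mono ?_
      rw [← num1 (b := b) (by omega)]
      exact Nat.mul_le_mul_right _ hK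
    have hfull : ∀ K : Subgroup G, ¬ SD b K → ∃ ψ : K → ℂ, IsIrrCharacter K ψ ∧ ψ 1 = b := by
      intro K hK
      unfold SD at hK
      push Not at hK
      obtain ⟨ψ, hψ, d, hd, hdb⟩ := hK
      have h1 := h.sub K ψ hψ d hd
      have : d = b := by omega
      exact ⟨ψ, hψ, by rw [hd, this]⟩
    by_cases hbt : b = 2
    · subst hbt
      exact (case_two hne h).mono (by decide)
    have hb3 : 3 ≤ b := by omega
    obtain ⟨N, hN, hND, hU, hDne⟩ := exists_N hne
    by_cases hZ : center (G ⧸ N) = ⊥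
    swap
    · obtain ⟨φ, h1, hv⟩ := exists_fully hU hDne hZ
      obtain ⟨h2, h3⟩ := center_case h N φ h1 hv
      exact hdown _ h3 h2
    have hNstep : ∀ m : ℕ, N.index ≤ m → m * (Nat.factorial (b / 2)) ^ 2 ≤ (Nat.factorial b) ^ 2 →
        AI G ((Nat.factorial b) ^ 2) := by
      intro m hm hle
      have h1 := ih (b / 2) (by omega) N (half h N hND)
      refine h1.up.mono ((Nat.mul_le_mul_right _ hm).trans hle)
    -- card bound
    have hcard : ∀ (K R : Subgroup G) (m : ℕ), R ≤ N → Nat.card K ≤ Nat.card R * (b * b) → K.index ≤ m →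
        N.index ≤ m * (b * b) := by
      intro K R m hR hle hm
      have h1 : Nat.card R ≤ Nat.card N := Nat.le_of_dvd Nat.card_pos (Subgroup.card_dvd_of_le hR)
      have h2 : Nat.card K ≤ Nat.card N * (b * b) := hle.trans (Nat.mul_le_mul_right _ h1)
      have h3 : Nat.card N * N.index = Nat.card K * K.index := by
        rw [N.card_mul_index, K.card_mul_index]
      have h4 : Nat.card N * N.index ≤ Nat.card N * (m * (b * b)) := by
        rw [h3]
        calc Nat.card K * K.index ≤ (Nat.card N * (b * b)) * m := Nat.mul_le_mul h2 hm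
          _ = _ := by ring
      exact Nat.le_of_mul_le_mul_left h4 Nat.card_pos
    by_cases hDab : ∀ x ∈ commutator (G ⧸ N), ∀ y ∈ commutator (G ⧸ N), x * y = y * x
    · -- Frobenius case
      have hFc := F_comm hU hDne hZ hDab
      have hFi := F_index (h.quot N) hU hDne hDab
      set F := centralizer ((commutator (G ⧸ N) : Subgroup (G ⧸ N)) : Set (G ⧸ N)) with hF
      have hFn : F.Normal := inferInstance
      have hKi : (F.comap (QuotientGroup.mk' N)).index ≤ b := by
        rw [Subgroup.index_comap_of_surjective _ (QuotientGroup.mk'_surjective N)]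
        exact hFi
      by_cases hK : SD b (F.comap (QuotientGroup.mk' N))
      · exact hdown _ (hKi.trans (Nat.le_mul_of_pos_left _ (by omega))) hK
      · obtain ⟨ψ, hψ, hψb⟩ := hfull _ hK
        have h1 := card_le hψ hψb N (fun x hx => K_vanish h N F hFc hZ hψ hψb x hx)
        exact hNstep _ (hcard _ N b le_rfl h1 hKi) (num3 hb3)
    · -- nonsolvable case
      haveI : Nontrivial (G ⧸ N) := by
        by_contra hnt
        rw [not_nontrivial_iff_subsingleton] at hnt
        exact hDab fun x _ y _ => Subsingleton.elim _ _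
      obtain ⟨x, hx1, hx⟩ := exists_small (h.quot N)
      have hHi : ((centralizer ({x} : Set (G ⧸ N))).comap (QuotientGroup.mk' N)).index ≤ b * b := by
        rw [Subgroup.index_comap_of_surjective _ (QuotientGroup.mk'_surjective N)]
        exact hx
      by_cases hK : SD b ((centralizer ({x} : Set (G ⧸ N))).comap (QuotientGroup.mk' N))
      · exact hdown _ hHi hK
      obtain ⟨ψ, hψ, hψb⟩ := hfull _ hK
      set H := (centralizer ({x} : Set (G ⧸ N))).comap (QuotientGroup.mk' N) with hH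
      have h1 := card_le hψ hψb H.normalCore (fun y hy => by
        intro g
        have := conj_mem h H hψ hψb hy g⁻¹
        rwa [inv_inv] at this)
      have hDM : ∀ M : Subgroup (G ⧸ N), M.Normal → M ≠ ⊥ →
          ¬ (commutator (G ⧸ N) ≤ centralizer (M : Set (G ⧸ N))) := by
        intro M hM hMne hle
        apply hDab
        intro y hy z hz
        exact (Subgroup.mem_centralizer_iff.1 (hle hz)) y (hU M hM hMne hy)
      have hR : H.normalCore ≤ N := by
        by_contra hcon
        have hMn : (H.normalCore.map (QuotientGroup.mk' N)).Normal :=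
          (H.normalCore_normal).map _ (QuotientGroup.mk'_surjective N)
        have hMne : H.normalCore.map (QuotientGroup.mk' N) ≠ ⊥ := by
          intro h0
          apply hcon
          intro y hy
          have : (QuotientGroup.mk' N) y ∈ H.normalCore.map (QuotientGroup.mk' N) := Subgroup.mem_map_of_mem _ hy
          rw [h0, Subgroup.mem_bot, QuotientGroup.mk'_apply, QuotientGroup.eq_one_iff] at this
          exact this
        apply hDM _ hMn hMne
        apply hU _ inferInstance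
        intro h0
        apply hx1
        rw [← Subgroup.mem_bot, ← h0, Subgroup.mem_centralizer_iff]
        rintro _ ⟨y, hy, rfl⟩
        have : (QuotientGroup.mk' N) y ∈ centralizer ({x} : Set (G ⧸ N)) := H.normalCore_le hy
        rw [Subgroup.mem_centralizer_singleton_iff] at this
        exact this
      have hb5 : 5 ≤ b := by
        by_contra hlt
        push Not at hlt
        have hs : Group.IsSolvable (G ⧸ N) :=
          solvable_of_five _ (G ⧸ N) rfl (fun χ hχ d hd => lt_of_lt_of_le ((h.quot N) χ hχ d hd) (by omega))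
        have h2 : ⁅commutator (G ⧸ N), commutator (G ⧸ N)⁆ < commutator (G ⧸ N) :=
          Group.IsSolvable.commutator_lt_of_ne_bot hDne
        by_cases h3 : ⁅commutator (G ⧸ N), commutator (G ⧸ N)⁆ = ⊥
        · apply hDab
          intro y hy z hz
          have h4 := Subgroup.commutator_mem_commutator hy hz
          rw [h3, Subgroup.mem_bot] at h4
          exact commutatorElement_eq_one_iff_mul_comm.1 h4
        · exact h2.not_ge (hU _ inferInstance h3)
      exact hNstep _ (hcard H _ (b * b) hR h1 hHi) (num5 hb5)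

end Cfsg.Agent.Lib.BFull
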