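import Cfsg.Agent.Lib.BN1

/-!
# S2987: kernels, the section W_E / C_{W_E}(E), the final case distinction (helper78)
-/

set_option autoImplicit false
set_option linter.unusedSectionVars false

namespace Cfsg.Agent.Lib.BN

open Subgroup Cfsg Cfsg.Agent.Lib.LocBase Cfsg.Agent.Lib.PReduced Cfsg.Agent.Lib.BBlock Cfsg.Agent.Lib.BBPair
open scoped commutatorElement

universe u
variable {G : Type u} [Group G] [Finite G] {p : ℕ} [hp : Fact p.Prime]

theorem ker_le {H : Type*} [Group H] {E : Subgroup G} (ρ : ↥E →* H) {R : Subgroup H} (hρ : ρ.range = R)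
    (hiso : Nonempty (↥E ⧸ pCore p ↥E ≃* ↥R)) (hQ : ∀ e : ↥E, (e : G) ∈ pCoreOf p E → ρ e = 1) :
    ∀ e : ↥E, ρ e = 1 → (e : G) ∈ pCoreOf p E := by
  obtain ⟨i⟩ := hiso
  have h1 := card_of_quot i
  have h2 := Subgroup.card_mul_index ρ.ker
  rw [Subgroup.index_ker, hρ, h1, mul_comm] at h2
  have hfin : Finite ↥R := by
    rw [← hρ]
    exact Finite.of_surjective ρ.rangeRestrict ρ.rangeRestrict_surjective
  have h3 : Nat.card ρ.ker = Nat.card ↥(pCoreOf p E) := Nat.eq_of_mul_eq_mul_left Nat.card_pos h2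
  have h4 : (pCoreOf p E).subgroupOf E ≤ ρ.ker := by
    intro e he
    exact MonoidHom.mem_ker.mpr (hQ e he)
  have h5 : (pCoreOf p E).subgroupOf E = ρ.ker := by
    apply Subgroup.eq_of_le_of_card_ge h4
    rw [h3, Nat.card_congr (Subgroup.subgroupOfEquivOfLe (pCoreOf_le E)).toEquiv]
  intro e he
  have h6 : e ∈ (pCoreOf p E).subgroupOf E := by rw [h5]; exact MonoidHom.mem_ker.mpr he
  exact h6

/-- the kernel on the section `Ω / C_Ω(E)` is `O_p(E)` -/
structure KB (p : ℕ) (E : Subgroup G) : Prop where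
  nb : NB p E
  ker : ∀ e ∈ E, (∀ u ∈ OZ p (pCoreOf p E), ⁅e, u⁆ ∈ centralizer (E : Set G)) → e ∈ pCoreOf p E

theorem Q_triv {E : Subgroup G} {e u : G} (he : e ∈ pCoreOf p E) (hu : u ∈ OZ p (pCoreOf p E)) : ⁅e, u⁆ = 1 := by
  rw [commutatorElement_eq_one_iff_mul_comm]
  exact (mem_centralizer_iff.mp (le_centralizer_OZ _ he) u hu).symm

theorem perm_one {m : ℕ} (hm : 1 ≤ m) (σ : Equiv.Perm (Fin (2 * m + 1)))
    (h : ∀ v : Fin (2 * m + 1) → ZMod 2, ∑ i, v i = 0 → ∀ i, v (σ⁻¹ i) = v i) : σ = 1 := by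
  have key : ∀ i, σ⁻¹ i = i := by
    intro i
    by_contra hne
    -- choose a third point
    obtain ⟨k, hk1, hk2⟩ : ∃ k : Fin (2 * m + 1), k ≠ i ∧ k ≠ σ⁻¹ i := by
      have h3 : ({i, σ⁻¹ i} : Finset (Fin (2 * m + 1))).card < Fintype.card (Fin (2 * m + 1)) := by
        rw [Fintype.card_fin]
        exact lt_of_le_of_lt (Finset.card_le_two) (by omega)
      obtain ⟨k, hk⟩ := Finset.exists_mem_notMem_of_card_lt_card (s := {i, σ⁻¹ i}) (t := Finset.univ) (by
        rw [Finset.card_univ]; exact h3)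
      simp only [Finset.mem_insert, Finset.mem_singleton, not_or] at hk
      exact ⟨k, hk.2.1, hk.2.2⟩
    have h1 := h (Pi.single i 1 + Pi.single k 1) (by
      rw [show (∑ j, (Pi.single i 1 + Pi.single k 1 : Fin (2 * m + 1) → ZMod 2) j) =
        ∑ j, ((Pi.single i 1 : Fin (2 * m + 1) → ZMod 2) j + (Pi.single k 1 : Fin (2 * m + 1) → ZMod 2) j) from rfl,
        Finset.sum_add_distrib, Finset.sum_pi_single', Finset.sum_pi_single']
      simp
      decide) i
    have hne' : (Equiv.symm σ) i ≠ i := hne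
    have hk2' : (Equiv.symm σ) i ≠ k := Ne.symm hk2
    simp [Pi.single_apply, hne', hk1.symm, hk2'] at h1
  have h2 : σ⁻¹ = 1 := Equiv.ext key
  rw [← inv_inv σ, h2, _root_.inv_one]

theorem kb_of (hG : centralizer (pCore p G : Set G) ≤ pCore p G) {T E : Subgroup G} (hT : IsSyl p T ⊤)
    (h : IsBaumannBlock p T E) : KB p E := by
  refine ⟨nb_of hG hT h, ?_⟩
  have hres := (blk_of hT h).res
  have hact0 := (blk_of hT h).act
  obtain ⟨h1, h2, h3, h4, h5⟩ := h
  rcases h5 with ⟨F, hF, hFin, n, hn, hiso, hact, -⟩ | ⟨hp2, m, hiso, hact, -⟩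
  · obtain ⟨a1, a2, ρ, ψ, hρ, hψ, hker, hac⟩ := hact
    have hone : ∀ e : ↥E, (∀ u : ↥(omegaOneCenter p (pCoreOf p E)), ⁅(e : G), (u : G)⁆ ∈ centralizer (E : Set G)) → ρ e = 1 := by
      intro e he
      apply Subtype.ext
      apply Matrix.ext_of_mulVec_single
      intro i
      obtain ⟨u, hu⟩ := hψ (Multiplicative.ofAdd (Pi.single i 1))
      obtain ⟨w, hw1, hw2⟩ := hac e u
      rw [hu] at hw2
      have h5' : ⁅(e : G), (u : G)⁆ = (w : G) * (u : G)⁻¹ := by rw [hw1, commutatorElement_def]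
      have h5 : ⁅(e : G), (u : G)⁆ ∈ omegaOneCenter p (pCoreOf p E) := by
        rw [h5']; exact mul_mem w.2 (inv_mem u.2)
      have h6 : w = (⟨⁅(e : G), (u : G)⁆, h5⟩ : ↥(omegaOneCenter p (pCoreOf p E))) * u := by
        apply Subtype.ext
        rw [hw1, Subgroup.coe_mul]
        change _ = ⁅(e : G), (u : G)⁆ * _
        rw [commutatorElement_def]; group
      have h7 : ψ w = ψ u := by
        rw [h6, map_mul, (hker _).mpr ⟨h5, he u⟩, one_mul]
      rw [h7, hu] at hw2
      refine Eq.trans hw2.symm ?_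
      exact (Matrix.one_mulVec _).symm
    have hk := ker_le (p := p) ρ hρ hiso (fun e he => hone e (fun u => by
      rw [Q_triv he u.2]; exact one_mem _))
    intro e he hu
    exact hk ⟨e, he⟩ (hone ⟨e, he⟩ (fun u => hu u u.2))
  · have hm : 1 ≤ m := by
      by_contra hne
      have hm0 : m = 0 := by omega
      subst hm0
      obtain ⟨e⟩ := hiso
      have hc : Nat.card ↥(alternatingGroup (Fin (2 * 0 + 1))) = 1 := by
        have : Subsingleton ↥(alternatingGroup (Fin (2 * 0 + 1))) := by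
          constructor
          rintro ⟨a, _⟩ ⟨b, _⟩
          apply Subtype.ext
          ext i
          have hi : ∀ j : Fin (2 * 0 + 1), (j : ℕ) = 0 := fun j => by omega
          rw [hi, hi]
        exact Nat.card_unique
      have hcE := card_of_quot e
      rw [hc, one_mul] at hcE
      have h6 : pCoreOf p E = E := Subgroup.eq_of_le_of_card_ge (pCoreOf_le E) hcE.le
      have h7 : IsPGroup p E := by rw [← h6]; exact isPGroup_pCoreOf p E
      have h8 := isPGroup_iff_pRes_eq_bot.mp h7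
      rw [hres] at h8
      apply hact0
      rw [h8]
      simp
    obtain ⟨a1, a2, ρ, ψ, hρ, hsum, hψ, hker, hac⟩ := hact
    have hone : ∀ e : ↥E, (∀ u : ↥(omegaOneCenter p (pCoreOf p E)), ⁅(e : G), (u : G)⁆ ∈ centralizer (E : Set G)) → ρ e = 1 := by
      intro e he
      apply perm_one hm
      intro v hv i
      obtain ⟨u, hu⟩ := hψ v hv
      obtain ⟨w, hw1, hw2⟩ := hac e u
      have h5' : ⁅(e : G), (u : G)⁆ = (w : G) * (u : G)⁻¹ := by rw [hw1, commutatorElement_def]
      have h5 : ⁅(e : G), (u : G)⁆ ∈ omegaOneCenter p (pCoreOf p E) := by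
        rw [h5']; exact mul_mem w.2 (inv_mem u.2)
      have h6 : w = (⟨⁅(e : G), (u : G)⁆, h5⟩ : ↥(omegaOneCenter p (pCoreOf p E))) * u := by
        apply Subtype.ext
        rw [hw1, Subgroup.coe_mul]
        change _ = ⁅(e : G), (u : G)⁆ * _
        rw [commutatorElement_def]; group
      have h7 : ψ w = ψ u := by
        rw [h6, map_mul, (hker _).mpr ⟨h5, he u⟩, one_mul]
      have h8 := hw2 i
      rw [h7, hu] at h8
      exact h8.symm
    have hk := ker_le (p := p) ρ hρ hiso (fun e he => hone e (fun u => by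
      rw [Q_triv he u.2]; exact one_mem _))
    intro e he hu
    exact hk ⟨e, he⟩ (hone ⟨e, he⟩ (fun u => hu u u.2))

end Cfsg.Agent.Lib.BN
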