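import Cfsg.Agent.Lib.BN2

/-!
# S2987: the section W_E / C_{W_E}(E), Case I (helper78)
-/

set_option autoImplicit false
set_option linter.unusedSectionVars false

namespace Cfsg.Agent.Lib.BN

open Subgroup Cfsg Cfsg.Agent.Lib.LocBase Cfsg.Agent.Lib.PReduced Cfsg.Agent.Lib.BBlock Cfsg.Agent.Lib.BBPair
open scoped commutatorElement

universe u
variable {G : Type u} [Group G] [Finite G] {p : ℕ} [hp : Fact p.Prime]

namespace NB

variable {E F : Subgroup G} (h : NB p E) (k : NB p F)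

include h in
theorem OZ_eq : WE p E ⊔ (OZ p (pCoreOf p E) ⊓ centralizer (E : Set G)) = OZ p (pCoreOf p E) := by
  obtain ⟨T, hT⟩ := h.blk
  have hEO : E ≤ normalizer (OZ p (pCoreOf p E) : Set G) :=
    (le_normalizer_pCoreOf p E).trans (normalizer_le_normalizer_OZ p _)
  rcases hT.irr (WE p E ⊔ (OZ p (pCoreOf p E) ⊓ centralizer (E : Set G))) le_sup_right
    (sup_le h.WE_le_OZ inf_le_left) (le_normalizer_sup h.WE_norm
      (le_normalizer_inf hEO (le_normalizer_centralizer le_normalizer))) with h1 | h1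
  · exfalso
    apply h.WE_not
    exact (le_sup_left.trans h1.le).trans inf_le_right
  · exact h1

include h k in
/-- the final case distinction -/
theorem final (hEF : ⁅E, F⁆ ≤ pCore p G) (hW : WE p E ≠ WE p F)
    (aE : pCoreOf p E = OZ p (pCoreOf p E) ∨ SB.Exc p E) (aF : pCoreOf p F = OZ p (pCoreOf p F) ∨ SB.Exc p F)
    (hx : SB.Exc p E → SB.Exc p F → ¬ ⁅E, F⁆ ≤ OZ p (pCoreOf p E) → ¬ ⁅E, F⁆ ≤ OZ p (pCoreOf p F) → False) :
    ⁅E, F⁆ = ⊥ := by
  have hFE : ⁅F, E⁆ ≤ pCore p G := by rw [commutator_comm]; exact hEF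
  obtain ⟨hD1, hD2⟩ := D_le h k hEF
  have c1 : ⁅E, F⁆ ≤ OZ p (pCoreOf p E) → ⁅E, F⁆ = ⊥ := comm_bot_of_le h k hEF hW
  have c2 : ⁅E, F⁆ ≤ OZ p (pCoreOf p F) → ⁅E, F⁆ = ⊥ := by
    intro h1
    rw [commutator_comm]
    exact comm_bot_of_le k h hFE hW.symm (by rw [commutator_comm]; exact h1)
  rcases aE with aE | aE
  · exact c1 (by rw [← aE]; exact hD1)
  · rcases aF with aF | aF
    · exact c2 (by rw [← aF]; exact hD2)
    · by_cases h3 : ⁅E, F⁆ ≤ OZ p (pCoreOf p E)
      · exact c1 h3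
      · by_cases h4 : ⁅E, F⁆ ≤ OZ p (pCoreOf p F)
        · exact c2 h4
        · exact (hx aE aF h3 h4).elim

end NB

theorem WE_char {E K : Subgroup G} (hK : K ≤ normalizer (E : Set G)) : K ≤ normalizer (WE p E : Set G) := by
  refine le_normalizer_commutator ?_ hK
  exact (hK.trans (normalizer_le_normalizer_pCoreOf p _)).trans (normalizer_le_normalizer_OZ p _)

namespace KB

variable {E : Subgroup G} (h : KB p E)
include h

theorem ker' {e : G} (he : e ∈ E) (hw : ∀ w ∈ WE p E, ⁅e, w⁆ ∈ centralizer (E : Set G)) : e ∈ pCoreOf p E := by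
  apply h.ker e he
  intro u hu
  rw [← h.nb.OZ_eq] at hu
  have hn : OZ p (pCoreOf p E) ⊓ centralizer (E : Set G) ≤ normalizer (WE p E : Set G) :=
    (inf_le_left.trans ((OZ_le _).trans (pCoreOf_le E))).trans h.nb.WE_norm
  obtain ⟨w, hw', z, hz, rfl⟩ := exists_mul_of_mem_sup_of_le hn hu
  have hez : e * z * e⁻¹ = z := by
    rw [mem_centralizer_iff.mp hz.2 e he]; group
  have e1 : ⁅e, w * z⁆ = ⁅e, w⁆ * (w * ((e * z * e⁻¹) * z⁻¹) * w⁻¹) := by
    simp only [commutatorElement_def]; group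
  rw [e1, hez, mul_inv_cancel, mul_one, mul_inv_cancel, mul_one]
  exact hw w hw'

theorem cent_le {e : G} (he : e ∈ E) (hc : e ∈ centralizer (WE p E : Set G)) : e ∈ pCoreOf p E := by
  apply h.ker' he
  intro w hw
  rw [commutatorElement_eq_one_iff_mul_comm.mpr (mem_centralizer_iff.mp hc w hw).symm]
  exact one_mem _

theorem bar {c : G} (hc : c ∈ normalizer (E : Set G)) (hw : ∀ w ∈ WE p E, ⁅c, w⁆ ∈ centralizer (E : Set G)) :
    c ∈ centralizer (WE p E : Set G) := by
  have hcW : c ∈ normalizer (WE p E : Set G) := WE_char (p := p) le_rfl hc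
  have hcC : c ∈ normalizer (centralizer (E : Set G) : Set G) := le_normalizer_centralizer le_rfl hc
  set Y := WE p E ⊓ centralizer (E : Set G) with hY
  have hWY : WE p E ≤ centralizer (WE p E : Set G) := by
    have h1 := h.nb.WE_le_V
    exact (h1.trans (elem_iff.mp (elem_OZ p _)).1).trans (centralizer_le h1)
  have hWn : WE p E ≤ normalizer (Y : Set G) :=
    (hWY.trans (centralizer_le inf_le_left)).trans (centralizer_le_normalizer _)
  have hcY : c ∈ normalizer (Y : Set G) := by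
    have := le_normalizer_inf (K := zpowers c) (zpowers_le.mpr hcW) (zpowers_le.mpr hcC)
    exact this (mem_zpowers c)
  have hzY : zpowers c ≤ normalizer (Y : Set G) := zpowers_le.mpr hcY
  have hzE : zpowers c ≤ normalizer (E : Set G) := zpowers_le.mpr hc
  have hEY : E ≤ normalizer (Y : Set G) := le_normalizer_inf h.nb.WE_norm (le_normalizer_centralizer le_normalizer)
  have h1 : ⁅WE p E, zpowers c⁆ ≤ Y := by
    apply H56Bau.comm_zpowers_le hcY
    intro x hx
    have h2 : ⁅x, c⁆ = ⁅c, x⁆⁻¹ := (commutatorElement_inv c x).symm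
    rw [h2]
    have h5 : ⁅c, x⁆ ∈ WE p E := by
      rw [commutatorElement_def]
      exact mul_mem ((mem_normalizer_iff.mp hcW x).mp hx) (inv_mem hx)
    exact inv_mem (mem_inf.mpr ⟨h5, hw x hx⟩)
  -- `[c, E]` acts trivially on the section
  have h2 : ⁅⁅zpowers c, E⁆, WE p E⁆ ≤ Y := by
    apply PAct.three_subgroups hzY hEY hWn
    · rw [commutator_comm E]
      exact (commutator_mono (h.nb.WE_idem).le le_rfl).trans h1
    · refine (commutator_mono h1 le_rfl).trans ?_
      rw [commutator_eq_bot_iff_le_centralizer.mpr inf_le_right]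
      exact bot_le
  have h3 : ⁅zpowers c, E⁆ ≤ pCoreOf p E := by
    intro g hg
    apply h.ker' (commutator_le_right_of_le hzE hg)
    intro w hw'
    exact (h2 (commutator_mem_commutator hg hw')).2
  have hb : ∀ K : Subgroup G, K ≤ normalizer ((⊥ : Subgroup G) : Set G) := fun K => norm_top _ inferInstance K
  have h4 : ⁅⁅E, WE p E⁆, zpowers c⁆ ≤ ⊥ := by
    apply PAct.three_subgroups (hb _) (hb _) (hb _)
    · refine (commutator_mono h1 le_rfl).trans ?_
      rw [commutator_eq_bot_iff_le_centralizer.mpr inf_le_right]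
    · refine (commutator_mono h3 le_rfl).trans ?_
      rw [commutator_eq_bot_iff_le_centralizer.mpr h.nb.Q_cent_WE]
  rw [commutator_comm E, h.nb.WE_idem, le_bot_iff, commutator_eq_bot_iff_le_centralizer, Subgroup.le_centralizer_iff] at h4
  exact h4 (mem_zpowers c)

end KB

/-- the doubly exceptional pair with quaternion quotients -/
theorem exc_q8 {E F S D Z : Subgroup G} (hS : IsPGroup 2 S) {zE zF : G}
    (qE : Q8 (S ⊓ E) zE) (qF : Q8 (S ⊓ F) zF) (hD : IsPGroup 3 D) (hcomm : ⁅E, F⁆ ≤ D)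
    (hDE : E ≤ normalizer (D : Set G)) (hDF : F ≤ normalizer (D : Set G))
    (hZE : E ≤ normalizer (Z : Set G)) (hZF : F ≤ normalizer (Z : Set G)) (hZD : Z ≤ D) (hDZ : D ≤ normalizer (Z : Set G))
    (hcard : Nat.card ↥D = 9 * Nat.card ↥Z)
    (iE : ∀ d ∈ D, zE * d * zE⁻¹ * d ∈ Z) (iF : ∀ d ∈ D, zF * d * zF⁻¹ * d ∈ Z) : False := by
  have h3 : ⁅S ⊓ E, S ⊓ F⁆ = ⊥ := by
    rw [eq_bot_iff]
    intro g hg
    have h1 : g ∈ D := hcomm (commutator_mono inf_le_right inf_le_right hg)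
    have h2 : g ∈ S := (commutator_mono inf_le_left inf_le_left |>.trans (Subgroup.commutator_le_self S)) hg
    have h4 := cop (p := 3) (r := 2) (by norm_num) hS (le_refl S) hD
    have h5 : orderOf g ∣ Nat.card S := Subgroup.orderOf_dvd_natCard S h2
    have h6 : orderOf g ∣ Nat.card D := Subgroup.orderOf_dvd_natCard D h1
    rw [mem_bot, ← orderOf_eq_one_iff, ← Nat.dvd_one, ← h4]
    exact Nat.dvd_gcd h5 h6
  obtain ⟨b, hb, hbz⟩ := qF.exists_sq
  obtain ⟨a, ha, haz, ht⟩ := qE.six_sec (X := D) (Y := Z) (b := b) hZD hDZ (hD.to_le hZD) hcard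
    (inf_le_right.trans hDE) (inf_le_right.trans hZE) iE (hDF hb.2) (hZF hb.2) (by rw [hbz]; exact iF)
  refine qE.no_comm (X := D) (Y := Z) hD ?_ iE (inf_le_right.trans hDE) (inf_le_right.trans hZE) ha haz ?_
    ⟨mul_mem (inv_mem (hDE ha.2)) (hDF hb.2), mul_mem (inv_mem (hZE ha.2)) (hZF hb.2), ?_⟩
  · intro hle
    have h4 := Subgroup.card_le_of_le hle
    have h5 : 0 < Nat.card Z := Nat.card_pos
    omega
  · intro c hc
    rw [← commutatorElement_eq_one_iff_mul_comm]
    have h4 : ⁅c, b⁆ ∈ ⁅S ⊓ E, S ⊓ F⁆ := commutator_mem_commutator hc hb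
    rw [h3, mem_bot] at h4
    rw [← commutatorElement_inv, h4, _root_.inv_one]
  · intro q hq
    have := inv_mem (ht q hq)
    rwa [commutatorElement_inv] at this

end Cfsg.Agent.Lib.BN
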