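import Cfsg.Agent.Lib.BN3

/-!
# S2987: types of blocks (not necessarily subnormal), Case I (helper78)
-/

set_option autoImplicit false
set_option linter.unusedSectionVars false

namespace Cfsg.Agent.Lib.BN

open Subgroup Cfsg Cfsg.Agent.Lib.LocBase Cfsg.Agent.Lib.PReduced Cfsg.Agent.Lib.BBlock Cfsg.Agent.Lib.BBPair
open scoped commutatorElement

universe u
variable {G : Type u} [Group G] [Finite G] {p : ℕ} [hp : Fact p.Prime]

/-- type A -/
structure TyA (p : ℕ) (E : Subgroup G) (K : Type) [Field K] [Fintype K] (n : ℕ) : Prop where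
  card : Fintype.card K = p ^ n
  gt : 3 < Fintype.card K
  iso : Nonempty (↥E ⧸ pCore p ↥E ≃* ↥(commutator (Matrix.SpecialLinearGroup (Fin 2) K)))
  acts : ActsAsSL2OnSection K (commutator (Matrix.SpecialLinearGroup (Fin 2) K)) E
    (OZ p (pCoreOf p E)) (OZ p (pCoreOf p E) ⊓ centralizer (E : Set G))
  alt : pCoreOf p E = OZ p (pCoreOf p E) ∨
    ActsAsSL2OnSection K (commutator (Matrix.SpecialLinearGroup (Fin 2) K)) E (pCoreOf p E) (OZ p (pCoreOf p E))

/-- type B -/
structure TyB (E : Subgroup G) (m : ℕ) : Prop where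
  two : 2 ≤ m
  iso : Nonempty (↥E ⧸ pCore 2 ↥E ≃* ↥(alternatingGroup (Fin (2 * m + 1))))
  acts : ActsAsOddPermModuleOnSection (2 * m + 1) (alternatingGroup (Fin (2 * m + 1))) E
    (OZ 2 (pCoreOf 2 E)) (OZ 2 (pCoreOf 2 E) ⊓ centralizer (E : Set G))
  ab : pCoreOf 2 E = OZ 2 (pCoreOf 2 E)

/-- type C -/
structure TyC (E : Subgroup G) : Prop where
  card : Nat.card E = 3 * Nat.card ↥(pCoreOf 2 E)
  ab : pCoreOf 2 E = OZ 2 (pCoreOf 2 E)
  cardO : Nat.card ↥(OZ 2 (pCoreOf 2 E)) = 4 * Nat.card ↥(OZ 2 (pCoreOf 2 E) ⊓ centralizer (E : Set G))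

/-- type D -/
structure TyD (E : Subgroup G) : Prop where
  card : Nat.card E = 8 * Nat.card ↥(pCoreOf 3 E)
  cardO : Nat.card ↥(OZ 3 (pCoreOf 3 E)) = 9 * Nat.card ↥(OZ 3 (pCoreOf 3 E) ⊓ centralizer (E : Set G))
  z : ∀ S : Subgroup G, Nat.card ↥(S ⊓ E) = 8 → ∃ z, Q8 (S ⊓ E) z ∧
    (∀ u ∈ OZ 3 (pCoreOf 3 E), z * u * z⁻¹ * u ∈ OZ 3 (pCoreOf 3 E) ⊓ centralizer (E : Set G)) ∧
    (pCoreOf 3 E = OZ 3 (pCoreOf 3 E) ∨ ((∀ u ∈ pCoreOf 3 E, z * u * z⁻¹ * u ∈ OZ 3 (pCoreOf 3 E)) ∧
      Nat.card ↥(pCoreOf 3 E) = 9 * Nat.card ↥(OZ 3 (pCoreOf 3 E))))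

theorem types {T E : Subgroup G} (hT : IsSyl p T ⊤) (hB : IsBaumannBlock p T E) :
    (∃ (K : Type) (_ : Field K) (_ : Fintype K) (n : ℕ), TyA p E K n) ∨ (p = 2 ∧ ∃ m, TyB E m) ∨ (p = 2 ∧ TyC E) ∨
      (p = 3 ∧ TyD E) := by
  have hB' := hB
  have hres := (blk_of hT hB).res
  have hact0 := (blk_of hT hB).act
  obtain ⟨h1, h2, h3, h4, h5⟩ := hB
  rcases h5 with ⟨F, hF, hFin, n, hn, hiso, hact, hq⟩ | ⟨hp2, m, hiso, hact, hq⟩
  · by_cases hF3 : 3 < Fintype.card F
    · left
      refine ⟨F, hF, hFin, n, hn, hF3, hiso, hact, ?_⟩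
      rcases hq with hq | ⟨-, hact2, -⟩
      · exact Or.inl hq
      · exact Or.inr hact2
    · have hF1 : 1 < Fintype.card F := Fintype.one_lt_card
      have hn0 : n ≠ 0 := by
        rintro rfl
        rw [pow_zero] at hn
        omega
      have hpF : p ∣ Fintype.card F := by rw [hn]; exact dvd_pow_self p hn0
      have hcases : Fintype.card F = 2 ∨ Fintype.card F = 3 := by omega
      rcases hcases with hc | hc
      · have hp2 : p = 2 := by
          rw [hc] at hpF
          exact (Nat.prime_dvd_prime_iff_eq hp.out Nat.prime_two).mp hpF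
        right; right; left
        subst hp2
        obtain ⟨e⟩ := hiso
        refine ⟨rfl, by rw [card_of_quot e, card_comm_two hc], ?_, ?_⟩
        · rcases hq with hq | ⟨h23, -⟩
          · exact hq
          · omega
        · have := card_acts hact
          rw [hc] at this
          exact this
      · have hp3 : p = 3 := by
          rw [hc] at hpF
          exact (Nat.prime_dvd_prime_iff_eq hp.out Nat.prime_three).mp hpF
        right; right; right
        subst hp3
        obtain ⟨e⟩ := hiso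
        have e3 : F ≃+* ZMod 3 := (ZMod.ringEquivOfPrime F Nat.prime_three hc).symm
        obtain ⟨Q, hQn, hQi, -, hQ8, hQm⟩ := ClSL23.exists_Q
        have hcQ := ClSL23.commutator_eq hQn hQi hQm
        have hcomm8 : Nat.card ↥(commutator (Matrix.SpecialLinearGroup (Fin 2) F)) = 8 := by
          rw [card_comm e3, hcQ, hQ8]
        have hcardE : Nat.card E = 8 * Nat.card ↥(pCoreOf 3 E) := by rw [card_of_quot e, hcomm8]
        refine ⟨rfl, hcardE, ?_, ?_⟩
        · have := card_acts hact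
          rw [hc] at this
          exact this
        · intro S hS
          obtain ⟨z, hz8, hzi⟩ := z_of hS hcardE (acts_map e3 hact)
          refine ⟨z, hz8, hzi, ?_⟩
          rcases hq with hq | ⟨-, hact2, -⟩
          · exact Or.inl hq
          · right
            obtain ⟨z2, hz8', hzi2⟩ := z_of hS hcardE (acts_map e3 hact2)
            have hzz := hz8.unique hz8'
            rw [hzz] at hzi2
            refine ⟨hzi2, ?_⟩
            have := card_acts hact2
            rw [hc] at this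
            exact this
  · by_cases hm : 2 ≤ m
    · subst hp2
      right; left
      exact ⟨rfl, m, hm, hiso, hact, hq⟩
    · subst hp2
      right; right; left
      refine ⟨rfl, ?_⟩
      obtain ⟨e⟩ := hiso
      have hm1 : m = 1 := by
        by_contra hne
        have hm0 : m = 0 := by omega
        subst hm0
        have hc : Nat.card ↥(alternatingGroup (Fin (2 * 0 + 1))) = 1 := by
          have : Subsingleton ↥(alternatingGroup (Fin (2 * 0 + 1))) := by
            constructor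
            rintro ⟨a, _⟩ ⟨b, _⟩
            apply Subtype.ext
            ext i
            have hi : ∀ j : Fin (2 * 0 + 1), (j : ℕ) = 0 := fun j => by omega
            rw [hi, hi]
          exact Nat.card_unique
        have hcE := card_of_quot e
        rw [hc, one_mul] at hcE
        have h6 : pCoreOf 2 E = E := Subgroup.eq_of_le_of_card_ge (pCoreOf_le E) hcE.le
        have h7 : IsPGroup 2 E := by rw [← h6]; exact isPGroup_pCoreOf 2 E
        have h8 := isPGroup_iff_pRes_eq_bot.mp h7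
        rw [hres] at h8
        apply hact0
        rw [h8]
        simp
      subst hm1
      refine ⟨?_, hq, ?_⟩
      · rw [card_of_quot e, nat_card_alternatingGroup]
        simp [Nat.factorial]
      · obtain ⟨a1, a2, ρ, ψ, hρ, hsum, hψ, hker, -⟩ := hact
        have h6 := card_section a2 ψ rfl hker
        have h7 : Nat.card ↥ψ.range = 4 := by
          rw [← card_even3]
          refine Nat.card_congr ⟨fun v => ⟨fun i => Multiplicative.toAdd (v : Multiplicative (Fin (2 * 1 + 1) → ZMod 2)) i, ?_⟩,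
            fun v => ⟨Multiplicative.ofAdd (fun i => v.1 i), ?_⟩, ?_, ?_⟩
          · obtain ⟨_, ⟨u, rfl⟩⟩ := v
            exact hsum u
          · obtain ⟨u, hu⟩ := hψ v.1 v.2
            exact ⟨u, hu⟩
          · intro v; rfl
          · intro v; rfl
        rw [h7] at h6
        exact h6

theorem TyB.not_exc {E : Subgroup G} {m : ℕ} (h : TyB E m) (x : SB.Exc 2 E) : False := BBPair.not_exc h.ab x
theorem TyC.not_exc {E : Subgroup G} (h : TyC E) (x : SB.Exc 2 E) : False := BBPair.not_exc h.ab x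

theorem TyA.pelt {E : Subgroup G} {K : Type} [Field K] [Fintype K] {n : ℕ} (h : TyA p E K n) (x : SB.Exc p E) :
    ∃ e ∈ E, IsPGroup p (zpowers e) ∧ ∃ x ∈ pCoreOf p E, ⁅x, e⁆ ∉ OZ p (pCoreOf p E) := by
  rcases h.alt with h1 | h1
  · exact (BBPair.not_exc h1 x).elim
  · exact sl2_pelt h.card h.gt h1

theorem syl_card {r k : ℕ} [hr : Fact r.Prime] (hpr : p ≠ r) {E S : Subgroup G} (hS : IsSyl r S E)
    (hcard : Nat.card E = r ^ k * Nat.card ↥(pCoreOf p E)) : Nat.card S = r ^ k := by
  obtain ⟨j, hj⟩ := (IsPGroup.iff_card).mp (isPGroup_pCoreOf p E)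
  have h1 : Nat.card S ∣ Nat.card E := Subgroup.card_dvd_of_le hS.le
  obtain ⟨i, hi⟩ := (IsPGroup.iff_card).mp hS.pgroup
  have hcop : Nat.Coprime r (p ^ j) := Nat.Coprime.pow_right _ ((Nat.coprime_primes hr.out hp.out).mpr hpr.symm)
  have h2 : S.relIndex E * Nat.card S = Nat.card E := by
    have := Subgroup.relIndex_mul_relIndex ⊥ S E bot_le hS.le
    rw [Subgroup.relIndex_bot_left, Subgroup.relIndex_bot_left] at this
    rw [mul_comm]; exact this
  have h3 := hS.ndvd
  rw [hj] at hcard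
  have h4 : r ^ k ∣ S.relIndex E * Nat.card S := by rw [h2, hcard]; exact dvd_mul_right _ _
  have h5 : Nat.Coprime (r ^ k) (S.relIndex E) := Nat.Coprime.pow_left _ ((Nat.Prime.coprime_iff_not_dvd hr.out).mpr h3)
  have h6 : r ^ k ∣ Nat.card S := h5.dvd_of_dvd_mul_left h4
  have h7 : Nat.card S ∣ r ^ k := by
    rw [hi, hcard] at h1
    rw [hi]
    exact (Nat.Coprime.pow_left i hcop).dvd_of_dvd_mul_right h1
  exact Nat.dvd_antisymm h7 h6

/-- Case I -/
theorem case1 {T E F : Subgroup G} (hT : IsSyl p T ⊤) (hG : centralizer (pCore p G : Set G) ≤ pCore p G)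
    (hE : IsBaumannBlock p T E) (hF : IsBaumannBlock p T F) (hs : Subn E ⊤) (hFE : F ≤ normalizer (E : Set G))
    (hc : F ≤ centralizer (WE p E : Set G)) : ⁅E, F⁆ = ⊥ := by
  have hsb := sb_of hG hT hE hs
  have h : NB p E := nb_of_sb hsb
  have k : NB p F := nb_of hG hT hF
  have hkb := kb_of hG hT hE
  have hEFQ : ⁅E, F⁆ ≤ pCoreOf p E := by
    intro g hg
    apply hkb.cent_le (commutator_le_left_of_le hFE hg)
    have h1 : E ≤ normalizer (centralizer (WE p E : Set G) : Set G) :=
      le_normalizer_centralizer hsb.WE_norm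
    exact (commutator_mono le_rfl hc).trans (commutator_le_right_of_le h1) hg
  have hEF : ⁅E, F⁆ ≤ pCore p G := hEFQ.trans hsb.Q_le
  have hW : WE p E ≠ WE p F := by
    intro he
    apply k.WE_not
    rw [← he, Subgroup.le_centralizer_iff]
    exact hc
  have hEFn := NB.norm_of h k hEF
  refine h.final k hEF hW (alt_of hE) (alt_of hF) ?_
  intro x y hDE hDF
  have hFE' : ⁅F, E⁆ ≤ pCore p G := by rw [commutator_comm]; exact hEF
  rcases types hT hE with ⟨K, _, _, n, tE⟩ | ⟨hp2, m, tE⟩ | ⟨hp2, tE⟩ | ⟨hp3, tE⟩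
  · obtain ⟨e, he, hep, u, hu, hue⟩ := tE.pelt x
    exact hue (NB.exc_nc h k hEF x y hDE hDF he hep u hu)
  · subst hp2; exact tE.not_exc x
  · subst hp2; exact tE.not_exc x
  · rcases types hT hF with ⟨K, _, _, n, tF⟩ | ⟨hp2, m, tF⟩ | ⟨hp2, tF⟩ | ⟨-, tF⟩
    · obtain ⟨e, he, hep, u, hu, hue⟩ := tF.pelt y
      apply hue
      refine NB.exc_nc k h hFE' y x ?_ ?_ he hep u hu
      · rw [commutator_comm]; exact hDF
      · rw [commutator_comm]; exact hDE
    · subst hp2; exact tF.not_exc y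
    · subst hp2; exact tF.not_exc y
    · subst hp3
      obtain ⟨D, Z, hD1, hD2, hDE', hDF', z1, z2, e1, e2, hDD0, hDD⟩ := NB.exc_pair h k hEF x y hDE hDF
      have hEO : E ≤ normalizer (OZ 3 (pCoreOf 3 E) : Set G) :=
        (le_normalizer_pCoreOf 3 E).trans (normalizer_le_normalizer_OZ 3 _)
      have hFO : F ≤ normalizer (OZ 3 (pCoreOf 3 F) : Set G) :=
        (le_normalizer_pCoreOf 3 F).trans (normalizer_le_normalizer_OZ 3 _)
      have hEZ : E ≤ normalizer (Z : Set G) := by rw [z1]; exact le_normalizer_inf hDE' hEO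
      have hFZ : F ≤ normalizer (Z : Set G) := by rw [z2]; exact le_normalizer_inf hDF' hFO
      have hZD : Z ≤ D := by rw [z1]; exact inf_le_left
      have hDZ : D ≤ normalizer (Z : Set G) := (hD1.trans (pCoreOf_le E)).trans hEZ
      have hDp : IsPGroup 3 D := (isPGroup_pCoreOf 3 E).to_le hD1
      -- a Sylow 2-subgroup of `EF`
      obtain ⟨S, hS, -⟩ := exists_isSyl_ge (p := 2) (A := ⊥) (H := E ⊔ F) (IsPGroup.of_bot) bot_le
      have hSE : IsSyl 2 (S ⊓ E) E := hS.inf_normal le_sup_left (sup_le le_normalizer hFE)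
      have hSF : IsSyl 2 (S ⊓ F) F := hS.inf_normal le_sup_right (sup_le hEFn le_normalizer)
      have cE : Nat.card ↥(S ⊓ E) = 8 := by
        rw [syl_card (p := 3) (r := 2) (k := 3) (by norm_num) hSE (by rw [tE.card]; norm_num)]; norm_num
      have cF : Nat.card ↥(S ⊓ F) = 8 := by
        rw [syl_card (p := 3) (r := 2) (k := 3) (by norm_num) hSF (by rw [tF.card]; norm_num)]; norm_num
      obtain ⟨zE, qE, -, aE⟩ := tE.z S cE
      obtain ⟨zF, qF, -, aF⟩ := tF.z S cF
      rcases aE with aE | ⟨aE, bE⟩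
      · exact BBPair.not_exc aE x
      rcases aF with aF | ⟨aF, bF⟩
      · exact BBPair.not_exc aF y
      refine exc_q8 hS.pgroup qE qF hDp hDD0 hDE' hDF' hEZ hFZ hZD hDZ ?_ ?_ ?_
      · have h4 := SubgroupTools.card_sup_mul_card_inf (N := D) (H := OZ 3 (pCoreOf 3 E))
          (((OZ_le _).trans (pCoreOf_le E)).trans hDE')
        rw [e1, ← z1, bE] at h4
        have h5 : Nat.card D * Nat.card ↥(OZ 3 (pCoreOf 3 E)) = (9 * Nat.card Z) * Nat.card ↥(OZ 3 (pCoreOf 3 E)) := by
          rw [← h4]; ring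
        exact Nat.eq_of_mul_eq_mul_right Nat.card_pos h5
      · intro d hd
        rw [z1]
        refine ⟨mul_mem ?_ hd, aE d (hD1 hd)⟩
        exact (mem_normalizer_iff.mp (hDE' qE.mem.2) _).mp hd
      · intro d hd
        rw [z2]
        refine ⟨mul_mem ?_ hd, aF d (hD2 hd)⟩
        exact (mem_normalizer_iff.mp (hDF' qF.mem.2) _).mp hd

end Cfsg.Agent.Lib.BN
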