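import Cfsg.Agent.Lib.BN4

/-!
# S2987: final arguments in Case II, types C and D (helper78)
-/

set_option autoImplicit false
set_option linter.unusedSectionVars false

namespace Cfsg.Agent.Lib.BN

open Subgroup Cfsg Cfsg.Agent.Lib.LocBase Cfsg.Agent.Lib.PReduced Cfsg.Agent.Lib.BBlock Cfsg.Agent.Lib.BBPair
open scoped commutatorElement

universe u
variable {G : Type u} [Group G] [Finite G] {p : ℕ} [hp : Fact p.Prime]

/-- the nonexceptional argument -/
theorem fin_nonexc {E F : Subgroup G} (h : NB p E) (k : NB p F) (aE : pCoreOf p E = OZ p (pCoreOf p E))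
    (aF : pCoreOf p F = OZ p (pCoreOf p F)) (hW : WE p F ≤ WE p E)
    (hCN : centralizer (WE p E : Set G) ≤ normalizer (E : Set G)) (hC : F ≤ E ⊔ centralizer (WE p E : Set G)) : F ≤ E := by
  set CL := (E ⊔ F) ⊓ centralizer (WE p E : Set G) with hCL
  have h1 : F ≤ E ⊔ CL := by
    intro f hf
    obtain ⟨e, he, c, hc, hfe⟩ := exists_mul_of_mem_sup_of_le hCN (hC hf)
    have h2 : c = e⁻¹ * f := by rw [hfe]; group
    have h3 : c ∈ E ⊔ F := by
      rw [h2]; exact mul_mem (inv_mem ((le_sup_left : E ≤ E ⊔ F) he)) ((le_sup_right : F ≤ E ⊔ F) hf)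
    rw [hfe]
    exact mul_mem ((le_sup_left : E ≤ E ⊔ CL) he) ((le_sup_right : CL ≤ E ⊔ CL) ⟨h3, hc⟩)
  have hcO : ∀ {K : Subgroup G}, NB p K → pCoreOf p K = OZ p (pCoreOf p K) → ⁅pCore p G, K⁆ ≤ WE p K := by
    intro K hK aK
    have h4 := commutator_pRes_idem (p := p) (P := pCore p G) (K := K) (isPGroup_pCore p G) (pCore_norm K)
    rw [hK.res] at h4
    rw [← h4]
    exact commutator_mono (hK.comm_O.trans aK.le) le_rfl
  have hFN : F ≤ normalizer (WE p E : Set G) := by
    refine hC.trans (sup_le h.WE_norm (centralizer_le_normalizer _))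
  have h5 : ∀ c ∈ E ⊔ F, ∀ o ∈ pCore p G, ⁅c, o⁆ ∈ WE p E := by
    apply comm_sup_mem h.WE_norm hFN
    · intro a ha o ho
      apply hcO h aE
      rw [commutator_comm]
      exact commutator_mem_commutator ha ho
    · intro a ha o ho
      apply hW
      apply hcO k aF
      rw [commutator_comm]
      exact commutator_mem_commutator ha ho
  have h6 : IsPGroup p CL := by
    apply H56Bau.isPGroup_of_pRes_le h.cp
    apply pRes_le_centralizer_of_chain (Q := WE p E) (isPGroup_pCore p G) (pCore_norm _)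
    · rw [commutator_comm, commutator_le]
      intro c hc o ho
      exact h5 c (pRes_le p _ hc).1 o ho
    · exact (pRes_le p _).trans inf_le_right
  have h7 : pRes p (E ⊔ CL) ≤ E := pRes_sup_le h6 (inf_le_right.trans hCN)
  rw [← k.res]
  exact (pRes_mono h1).trans h7

/-- the perfect argument -/
theorem fin_perfect {E F B : Subgroup G} (h : SB p E) (hkE : KB p E) (hkF : KB p F) (hperf : ⁅F, F⁆ = F)
    (hW : WE p F ≤ WE p E) (hFE : F ≤ normalizer (E : Set G)) (hB : B.Normal) (hBE : B ≤ normalizer (E : Set G))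
    (hFB : F ≤ B) (hEB : E ≤ B) (hCE : centralizer (WE p E : Set G) ≤ normalizer (E : Set G))
    (hCF : centralizer (WE p F : Set G) ≤ normalizer (F : Set G)) (hC : F ≤ E ⊔ centralizer (WE p E : Set G)) : F ≤ E := by
  set C1 := B ⊓ centralizer (WE p E : Set G) with hC1
  have hB' : ∀ K : Subgroup G, K ≤ normalizer (B : Set G) := fun K => norm_top _ hB K
  have h1 : F ≤ E ⊔ C1 := by
    intro f hf
    obtain ⟨e, he, c, hc, hfe⟩ := exists_mul_of_mem_sup_of_le hCE (hC hf)
    have h2 : c = e⁻¹ * f := by rw [hfe]; group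
    have h3 : c ∈ B := by
      rw [h2]; exact mul_mem (inv_mem (hEB he)) (hFB hf)
    rw [hfe]
    exact mul_mem ((le_sup_left : E ≤ E ⊔ C1) he) ((le_sup_right : C1 ≤ E ⊔ C1) ⟨h3, hc⟩)
  have hC1B : B ≤ normalizer (C1 : Set G) :=
    le_normalizer_inf (hB' B) (le_normalizer_centralizer (WE_char hBE))
  have hC1F : C1 ≤ normalizer (F : Set G) := (inf_le_right.trans (centralizer_le hW)).trans hCF
  -- `F ∩ C₁` is a subnormal `p`-subgroup
  have h3 : F ⊓ C1 ≤ pCoreOf p F := by
    intro x hx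
    exact hkF.cent_le hx.1 (centralizer_le hW hx.2.2)
  have h4 : Subn (F ⊓ C1) ⊤ := by
    have s1 : Subn (F ⊓ C1) C1 := Subn.of_normal inf_le_right (le_normalizer_inf hC1F le_normalizer)
    have s2 : Subn C1 B := Subn.of_normal inf_le_left hC1B
    have s3 : Subn B ⊤ := Subn.of_normal le_top (hB' ⊤)
    exact (s1.trans s2).trans s3
  have h5 : F ⊓ C1 ≤ pCore p G := by
    have h6 : IsPGroup p ↥(F ⊓ C1) := (isPGroup_pCoreOf p F).to_le h3
    have := h4.le_pCoreOf h6
    rwa [pCoreOf_top] at this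
  have hFC1 : F ≤ normalizer (C1 : Set G) := hFB.trans hC1B
  have h6 : ⁅F, C1⁆ ≤ pCore p G := by
    refine le_trans (le_inf ?_ ?_) h5
    · exact commutator_le_left_of_le hC1F
    · exact commutator_le_right_of_le hFC1
  have h7 : ⁅F, E⁆ ≤ E := commutator_le_right_of_le hFE
  have hOE : ∀ {K : Subgroup G}, K ≤ normalizer (E : Set G) → K ≤ normalizer ((E ⊔ pCore p G : Subgroup G) : Set G) :=
    fun hK => le_normalizer_sup hK (pCore_norm _)
  have h8 : ⁅E ⊔ C1, F⁆ ≤ E ⊔ pCore p G := by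
    rw [commutator_le]
    intro c hc f hf
    refine comm_sup_mem (A := E) (B := C1) (P := F) (X := E ⊔ pCore p G) (hOE le_normalizer)
      (hOE (inf_le_left.trans hBE)) ?_ ?_ c hc f hf
    · intro a ha o ho
      apply (le_sup_left : E ≤ _)
      apply h7
      rw [commutator_comm]
      exact commutator_mem_commutator ha ho
    · intro a ha o ho
      apply (le_sup_right : pCore p G ≤ _)
      apply h6
      rw [commutator_comm]
      exact commutator_mem_commutator ha ho
  have h9 : F ≤ E ⊔ pCore p G := by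
    conv_lhs => rw [← hperf]
    exact (commutator_mono h1 le_rfl).trans h8
  have h10 := pRes_sup_le (isPGroup_pCore p G) h.O_norm
  rw [← hkF.nb.res]
  exact (pRes_mono h9).trans h10

section sylow
variable {r : ℕ} [hr : Fact r.Prime]

theorem cop_card (hpr : p ≠ r) {A P : Subgroup G} (hA : IsPGroup r A) (hP : IsPGroup p P) :
    (Nat.card A).Coprime (Nat.card P) := cop hpr hA (le_refl A) hP

theorem inter_one (hpr : p ≠ r) {A P : Subgroup G} (hA : IsPGroup r A) (hP : IsPGroup p P) {x : G} (hx : x ∈ P)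
    (hx' : x ∈ A) : x = 1 := by
  have h5 : orderOf x ∣ Nat.card A := Subgroup.orderOf_dvd_natCard A hx'
  have h6 : orderOf x ∣ Nat.card P := Subgroup.orderOf_dvd_natCard P hx
  rw [← orderOf_eq_one_iff, ← Nat.dvd_one, ← cop_card hpr hA hP]
  exact Nat.dvd_gcd h5 h6

theorem gen_nb (hpr : p ≠ r) {E A : Subgroup G} (hA : IsSyl r A E) {k : ℕ}
    (hcard : Nat.card E = r ^ k * Nat.card ↥(pCoreOf p E)) : pCoreOf p E ⊔ A = E := by
  have h1 := syl_card hpr hA hcard
  have hAn : A ≤ normalizer (pCoreOf p E : Set G) := hA.le.trans (le_normalizer_pCoreOf p E)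
  have h2 := card_sup_of_inf hAn (fun x hx hx' => inter_one hpr hA.pgroup (isPGroup_pCoreOf p E) hx hx')
  apply Subgroup.eq_of_le_of_card_ge (sup_le (pCoreOf_le E) hA.le)
  rw [h2, h1, hcard, mul_comm]

theorem comm_gen {E A : Subgroup G} (gen : pCoreOf p E ⊔ A = E) : ⁅OZ p (pCoreOf p E), A⁆ = WE p E := by
  apply le_antisymm
  · apply commutator_mono le_rfl
    conv_rhs => rw [← gen]
    exact le_sup_right
  · have hEO : E ≤ normalizer (OZ p (pCoreOf p E) : Set G) :=
      (le_normalizer_pCoreOf p E).trans (normalizer_le_normalizer_OZ p _)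
    have hA : A ≤ E := by
      have := (le_sup_right : A ≤ pCoreOf p E ⊔ A)
      rwa [gen] at this
    have hQn : pCoreOf p E ≤ normalizer ((⁅OZ p (pCoreOf p E), A⁆ : Subgroup G) : Set G) := by
      refine ((le_centralizer_OZ (p := p) (pCoreOf p E)).trans (centralizer_le ?_)).trans (centralizer_le_normalizer _)
      exact commutator_le_left_of_le (hA.trans hEO)
    have h1 : ∀ c ∈ pCoreOf p E ⊔ A, ∀ o ∈ OZ p (pCoreOf p E), ⁅c, o⁆ ∈ ⁅OZ p (pCoreOf p E), A⁆ := by
      apply comm_sup_mem hQn (normalizer_commutator_ge_right _ _)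
      · intro a ha o ho
        rw [Q_triv ha ho]; exact one_mem _
      · intro a ha o ho
        rw [commutator_comm]
        exact commutator_mem_commutator ha ho
    change ⁅OZ p (pCoreOf p E), E⁆ ≤ _
    rw [commutator_comm, commutator_le]
    intro c hc o ho
    rw [← gen] at hc
    exact h1 c hc o ho

theorem W_inf_nb (hpr : p ≠ r) {E A : Subgroup G} (hA : IsPGroup r A) (gen : pCoreOf p E ⊔ A = E) {w : G}
    (hw : w ∈ WE p E) (hc : w ∈ centralizer (A : Set G)) : w = 1 := by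
  have hAE : A ≤ E := by
    have := (le_sup_right : A ≤ pCoreOf p E ⊔ A)
    rwa [gen] at this
  have hEO : E ≤ normalizer (OZ p (pCoreOf p E) : Set G) :=
    (le_normalizer_pCoreOf p E).trans (normalizer_le_normalizer_OZ p _)
  have hV : IsMulCommutative ↥(OZ p (pCoreOf p E)) := by
    rw [isMulCommutative_iff_of_setLike]
    intro a ha b hb
    exact mem_centralizer_iff.mp ((elem_iff.mp (elem_OZ p (pCoreOf p E))).1 hb) a ha
  have h1 := CoprimeAction2.inf_commutator_eq_bot_of_abelian (A := A) (V := OZ p (pCoreOf p E)) (hAE.trans hEO)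
    (cop_card hpr hA ((isPGroup_pCoreOf p E).to_le (OZ_le _)))
  rw [comm_gen gen] at h1
  have h2 : w ∈ (OZ p (pCoreOf p E) ⊓ centralizer (A : Set G)) ⊓ WE p E :=
    ⟨⟨commutator_le_left_of_le hEO hw, hc⟩, hw⟩
  rw [h1] at h2
  exact mem_bot.mp h2

theorem cardW_nb (hpr : p ≠ r) {E A : Subgroup G} (h : NB p E) (hA : IsPGroup r A) (gen : pCoreOf p E ⊔ A = E) {c : ℕ}
    (hc : Nat.card ↥(OZ p (pCoreOf p E)) = c * Nat.card ↥(OZ p (pCoreOf p E) ⊓ centralizer (E : Set G))) :
    Nat.card ↥(WE p E) = c := by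
  have hAE : A ≤ E := by
    have := (le_sup_right : A ≤ pCoreOf p E ⊔ A)
    rwa [gen] at this
  have hn : OZ p (pCoreOf p E) ⊓ centralizer (E : Set G) ≤ normalizer (WE p E : Set G) :=
    (inf_le_left.trans ((OZ_le _).trans (pCoreOf_le E))).trans h.WE_norm
  have h1 := card_sup_of_inf hn (fun w hw hw2 => W_inf_nb hpr hA gen hw (centralizer_le hAE hw2.2))
  rw [h.OZ_eq, hc] at h1
  exact (Nat.eq_of_mul_eq_mul_right Nat.card_pos h1).symm

end sylow

theorem cardW_ge {E : Subgroup G} (h : NB p E) {c : ℕ}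
    (hc : Nat.card ↥(OZ p (pCoreOf p E)) = c * Nat.card ↥(OZ p (pCoreOf p E) ⊓ centralizer (E : Set G))) :
    c ≤ Nat.card ↥(WE p E) := by
  have hn : OZ p (pCoreOf p E) ⊓ centralizer (E : Set G) ≤ normalizer (WE p E : Set G) :=
    (inf_le_left.trans ((OZ_le _).trans (pCoreOf_le E))).trans h.WE_norm
  have h1 := SubgroupTools.card_sup_mul_card_inf (N := WE p E)
    (H := OZ p (pCoreOf p E) ⊓ centralizer (E : Set G)) hn
  rw [h.OZ_eq, hc] at h1
  have h2 : 0 < Nat.card ↥(WE p E ⊓ (OZ p (pCoreOf p E) ⊓ centralizer (E : Set G)) : Subgroup G) := Nat.card_pos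
  have h3 : 0 < Nat.card ↥(OZ p (pCoreOf p E) ⊓ centralizer (E : Set G)) := Nat.card_pos
  have h4 : c * Nat.card ↥(OZ p (pCoreOf p E) ⊓ centralizer (E : Set G)) ≤
      Nat.card ↥(WE p E) * Nat.card ↥(OZ p (pCoreOf p E) ⊓ centralizer (E : Set G)) := by
    rw [← h1]
    exact Nat.le_mul_of_pos_right _ h2
  exact Nat.le_of_mul_le_mul_right h4 h3

end Cfsg.Agent.Lib.BN
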