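import Cfsg.Agent.Lib.H56BauM

/-!
# S2985, part N: existence of quadratic elements (helper56)
-/

set_option autoImplicit false
set_option linter.unusedSectionVars false

namespace Cfsg.Agent.Lib.H56Bau

open Subgroup Cfsg Cfsg.Agent.Lib.LocBase Cfsg.Agent.Lib.PReduced Cfsg.Agent.Lib.BBlock
open Cfsg.Agent.Lib.BBlock.Blk (WE)
open scoped commutatorElement Matrix

universe u
variable {G : Type u} [Group G] [Finite G]

theorem up_zero {F : Type*} [Field F] : up (0 : F) = 1 := by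
  apply Subtype.ext
  change !![1, (0 : F); 0, 1] = 1
  ext i j
  fin_cases i <;> fin_cases j <;> simp

theorem lin_of_small {F : Type*} [Field F] (hs : ∀ t : F, t ≠ 0 → t ^ 2 = 1) {β : (Fin 2 → F) → (Fin 2 → F)}
    (hadd : ∀ v w, β (v + w) = β v + β w) : ∃ M : Matrix (Fin 2) (Fin 2) F, ∀ v, β v = M *ᵥ v := by
  have h0 : β 0 = 0 := by
    have := hadd 0 0
    rw [add_zero] at this
    exact left_eq_add.mp this
  have hneg : ∀ v, β (-v) = - β v := by
    intro v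
    have := hadd v (-v)
    rw [add_neg_cancel, h0] at this
    exact (neg_eq_of_add_eq_zero_right this.symm).symm
  have hsm : ∀ (c : F) v, β (c • v) = c • β v := by
    intro c v
    by_cases hc : c = 0
    · rw [hc, zero_smul, zero_smul, h0]
    · have h1 : (c - 1) * (c + 1) = 0 := by
        have := hs c hc
        linear_combination this
      rcases mul_eq_zero.mp h1 with h | h
      · rw [sub_eq_zero.mp h, one_smul, one_smul]
      · rw [eq_neg_of_add_eq_zero_left h, neg_one_smul, neg_one_smul, hneg]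
  refine ⟨!![β ![1, 0] 0, β ![0, 1] 0; β ![1, 0] 1, β ![0, 1] 1], fun v => ?_⟩
  have e1 : v = v 0 • ![1, 0] + v 1 • ![0, 1] := by ext i; fin_cases i <;> simp
  have e2 : β v = v 0 • β ![1, 0] + v 1 • β ![0, 1] := by
    conv_lhs => rw [e1]
    rw [hadd, hsm, hsm]
  rw [e2]
  ext i; fin_cases i <;> simp [Matrix.mulVec, dotProduct, Fin.sum_univ_two] <;> ring

/-- sections in the case of the full special linear group -/
theorem quad_sec {F : Type*} [Field F] (h3 : (3 : F) = 0) {E U U₀ S : Subgroup G} (s : NatSec F E U U₀)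
    (hbig : ∀ c : F, up c ∈ commutator (SL2 F) ∧ lo c ∈ commutator (SL2 F)) (hk1 : ∀ e ∈ E, s.ρ e = 1 → e ∈ Qo E)
    (hk2 : ∀ q ∈ Qo E, s.ρ q = 1) (hQn : E ≤ normalizer (Qo E : Set G)) (hS : IsSyl 3 S E) {b : G}
    (hU : b ∈ normalizer (U : Set G)) (hU₀ : b ∈ normalizer (U₀ : Set G)) (hSb : ∀ σ ∈ S, ⁅σ, b⁆ ∈ Qo E) {k : ℕ}
    (hbk : b ^ 3 ^ k = 1) : ∀ u ∈ U, ⁅⁅u, b⁆, b⁆ ∈ U₀ := by
  have hQE : Qo E ≤ E := pCoreOf_le E
  have hup3 : ∀ c : F, up c ^ 3 = 1 := by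
    intro c
    rw [pow_succ, pow_two, up_mul, up_mul, ← up_zero]
    congr 1
    linear_combination c * h3
  let A : Subgroup G :=
    { carrier := {e | e ∈ E ∧ ∃ c, s.ρ e = up c}
      mul_mem' := by
        rintro a c ⟨ha, y, hy⟩ ⟨hc, z, hz⟩
        exact ⟨mul_mem ha hc, y + z, by rw [s.ρ_mul a ha c hc, hy, hz, up_mul]⟩
      one_mem' := ⟨one_mem _, 0, by rw [s.ρ_one, up_zero]⟩
      inv_mem' := by
        rintro a ⟨ha, y, hy⟩
        refine ⟨inv_mem ha, -y, ?_⟩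
        rw [s.ρ_inv ha, hy, inv_eq_iff_mul_eq_one, up_mul, add_neg_cancel, up_zero] }
  have hAE : A ≤ E := fun _ h => h.1
  have hAp : IsPGroup 3 A := by
    rintro ⟨e, he, c, hc⟩
    have h1 : e ^ 3 ∈ Qo E := hk1 _ (pow_mem he 3) (by rw [s.ρ_pow he, hc, hup3])
    obtain ⟨m, hm⟩ := isPGroup_pCoreOf 3 E ⟨_, h1⟩
    refine ⟨m + 1, ?_⟩
    apply Subtype.ext
    change e ^ 3 ^ (m + 1) = 1
    have := congrArg Subtype.val hm
    rw [pow_succ', pow_mul]
    simpa using this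
  obtain ⟨h, hhE, hle⟩ := hS.exists_conj_le hAp hAE
  choose e he he2 using fun c : F => s.ρ_surj _ (hbig c).1
  set b' := h⁻¹ * b * h with hb'
  have hb'U : b' ∈ normalizer (U : Set G) := mul_mem (mul_mem (inv_mem (s.nor hhE)) hU) (s.nor hhE)
  have hb'U₀ : b' ∈ normalizer (U₀ : Set G) := mul_mem (mul_mem (inv_mem (s.nor₀ hhE)) hU₀) (s.nor₀ hhE)
  have hb'k : b' ^ 3 ^ k = 1 := by
    have e1 : b' = h⁻¹ * b * h⁻¹⁻¹ := by rw [hb', inv_inv]
    rw [e1, conj_pow, hbk]; group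
  have hq := s.quad_up h3 hb'U hb'U₀ hb'k he he2 (by
    intro c u hu
    have h1 : ⁅e c, b'⁆ ∈ Qo E := by
      have h2 : h * e c * h⁻¹ ∈ S := hle (mem_map_of_mem _ (show e c ∈ A from ⟨he c, c, he2 c⟩))
      have h4 := hSb _ h2
      have e1 : ⁅e c, b'⁆ = h⁻¹ * ⁅h * e c * h⁻¹, b⁆ * h⁻¹⁻¹ := by
        rw [hb']; simp only [commutatorElement_def]; group
      rw [e1]
      exact conj_mem_of_le_normalizer hQn (inv_mem hhE) h4
    have h5 : b' * (e c * u * (e c)⁻¹) * b'⁻¹ ∈ U :=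
      (mem_normalizer_iff.mp hb'U _).mp (conj_mem_of_le_normalizer s.nor (he c) hu)
    have e2 : e c * (b' * u * b'⁻¹) * (e c)⁻¹ = ⁅e c, b'⁆ * (b' * (e c * u * (e c)⁻¹) * b'⁻¹) * ⁅e c, b'⁆⁻¹ := by
      simp only [commutatorElement_def]; group
    rw [e2, s.act _ (hQE h1) _ h5, hk2 _ h1]
    exact Matrix.one_mulVec _)
  intro u hu
  have h6 : h⁻¹ * u * h⁻¹⁻¹ ∈ U := conj_mem_of_le_normalizer s.nor (inv_mem hhE) hu
  have h7 := hq _ h6
  have e3 : ⁅⁅u, b⁆, b⁆ = h * ⁅⁅h⁻¹ * u * h⁻¹⁻¹, b'⁆, b'⁆ * h⁻¹ := by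
    rw [hb']; simp only [commutatorElement_def]; group
  rw [e3]
  exact conj_mem_of_le_normalizer s.nor₀ hhE h7

namespace Exc

variable {T E : Subgroup G} {F : Type} [Field F] (x : Exc T E F)
include x

theorem exists_quad : ∃ b, Quad (T := T) (E := E) b := by
  set B := baumannSubgroupOf 3 T with hB
  have hBp : IsPGroup 3 B := x.blk.syl.pgroup.to_le (bau_le 3 T)
  have hBk : ∀ b ∈ B, ∃ k, b ^ 3 ^ k = 1 := by
    intro b hb
    obtain ⟨k, hk⟩ := hBp ⟨b, hb⟩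
    have := congrArg Subtype.val hk
    exact ⟨k, by simpa using this⟩
  have h0 : ∃ b ∈ B, b ∉ centralizer (WE 3 E : Set G) := by
    by_contra hcon
    push Not at hcon
    have hBC : B ≤ centralizer (WE 3 E : Set G) := hcon
    have h1 : E ≤ centralizer (WE 3 E : Set G) :=
      le_of_commutator_eq x.blk.comm hBC (le_normalizer_centralizer (le_normalizer.trans NEWE))
    exact x.t_not (x.cen_E x.ht (h1 x.ht))
  rcases dich (F := F) with hbig | hs
  · by_cases hcase : ∃ b ∈ B, b ∈ E ∧ b ∉ Qo E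
    · obtain ⟨b, hbB, hbE, hbQ⟩ := hcase
      obtain ⟨k, hk⟩ := hBk b hbB
      exact ⟨b, hbB, fun h => hbQ (x.cen_E hbE h), x.sW.quad_lin x.h3 (x.Wn hbE) hk (x.sW.act b hbE),
        x.sQ.quad_lin x.h3 (x.Qn hbE) hk (x.sQ.act b hbE)⟩
    · push Not at hcase
      obtain ⟨b, hbB, hbC⟩ := h0
      obtain ⟨k, hk⟩ := hBk b hbB
      have hbN := x.BN hbB
      obtain ⟨R, hR, hBR⟩ := exists_isSyl_ge hBp (le_sup_right : B ≤ E ⊔ B)
      have hS : IsSyl 3 (R ⊓ E) E := hR.inf_normal le_sup_left (sup_le le_normalizer x.BN)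
      have hSb : ∀ σ ∈ R ⊓ E, ⁅σ, b⁆ ∈ Qo E := by
        intro σ hσ
        have h1 : σ ∈ normalizer (B : Set G) := (le_normalizer.trans (norm_bau x.blk.syl hR.pgroup hBR)) hσ.1
        have h2 : ⁅σ, b⁆ ∈ B := by
          rw [commutatorElement_def]
          exact mul_mem ((mem_normalizer_iff.mp h1 _).mp hbB) (inv_mem hbB)
        have h4 : ⁅σ, b⁆ ∈ E := by
          rw [commutatorElement_def, mul_assoc, mul_assoc, ← mul_assoc b]
          exact mul_mem hσ.2 ((mem_normalizer_iff.mp hbN _).mp (inv_mem hσ.2))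
        exact hcase _ h2 h4
      exact ⟨b, hbB, hbC,
        quad_sec x.h3 x.sW hbig x.kW (fun q hq => x.ρWQ hq) x.Qn hS (NEW hbN) (NEZ hbN) hSb hk,
        quad_sec x.h3 x.sQ hbig x.kQ (fun q hq => x.ρQ hq) x.Qn hS (NEQ hbN) (NEW hbN) hSb hk⟩
  · obtain ⟨b, hbB, hbC⟩ := h0
    obtain ⟨k, hk⟩ := hBk b hbB
    have hbN := x.BN hbB
    refine ⟨b, hbB, hbC, ?_, ?_⟩
    · obtain ⟨β, hβ, hadd⟩ := x.sW.exists_beta (NEW hbN) (NEZ hbN)
      obtain ⟨M, hM⟩ := lin_of_small hs hadd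
      exact x.sW.quad_lin x.h3 (NEW hbN) hk (fun u hu => by rw [hβ u hu, hM])
    · obtain ⟨β, hβ, hadd⟩ := x.sQ.exists_beta (NEQ hbN) (NEW hbN)
      obtain ⟨M, hM⟩ := lin_of_small hs hadd
      exact x.sQ.quad_lin x.h3 (NEQ hbN) hk (fun u hu => by rw [hβ u hu, hM])

end Exc

end Cfsg.Agent.Lib.H56Bau
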