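import Cfsg.Agent.Lib.H56BauL
import Cfsg.Agent.Lib.H56BauN

/-!
# S2985, part O: assembly (helper56)
-/

set_option autoImplicit false
set_option linter.unusedSectionVars false

namespace Cfsg.Agent.Lib.H56Bau

open Subgroup Cfsg Cfsg.Agent.Lib.LocBase Cfsg.Agent.Lib.PReduced Cfsg.Agent.Lib.BBlock
open Cfsg.Agent.Lib.BBlock.Blk (WE)
open scoped commutatorElement Matrix

universe u
variable {G : Type u} [Group G] [Finite G]

theorem ker_eq {F : Type*} [Field F] [Finite F] {E U U₀ : Subgroup G} (s : NatSec F E U U₀)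
    (hiso : Nonempty (↥E ⧸ pCore 3 ↥E ≃* ↥(commutator (SL2 F)))) (hQ : ∀ q ∈ Qo E, s.ρ q = 1) :
    ∀ e ∈ E, s.ρ e = 1 → e ∈ Qo E := by
  let f : ↥E →* SL2 F := MonoidHom.mk' (fun e => s.ρ (e : G)) (fun a b => s.ρ_mul a a.2 b b.2)
  have hf : ∀ e : ↥E, f e = s.ρ (e : G) := fun _ => rfl
  have hr : f.range = commutator (SL2 F) := by
    apply le_antisymm
    · rintro _ ⟨e, rfl⟩
      exact s.ρ_mem e e.2
    · intro r hr
      obtain ⟨a, ha, rfl⟩ := s.ρ_surj r hr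
      exact ⟨⟨a, ha⟩, rfl⟩
  have h1 : pCore 3 ↥E ≤ f.ker := by
    intro e he
    rw [MonoidHom.mem_ker, hf]
    exact hQ _ (mem_map_of_mem E.subtype he)
  have h2 : f.ker.index = (pCore 3 ↥E).index := by
    rw [Subgroup.index_ker, hr, Subgroup.index_eq_card]
    exact (Nat.card_congr hiso.some.toEquiv).symm
  have h3 : pCore 3 ↥E = f.ker := by
    apply Subgroup.eq_of_le_of_card_ge h1
    have a1 := f.ker.card_mul_index
    have a2 := (pCore 3 ↥E).card_mul_index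
    rw [h2, ← a2] at a1
    have h4 : (pCore 3 ↥E).index ≠ 0 := Subgroup.index_ne_zero_of_finite
    exact (Nat.eq_of_mul_eq_mul_right (Nat.pos_of_ne_zero h4) a1).le
  intro e he h
  have h4 : (⟨e, he⟩ : ↥E) ∈ f.ker := by rw [MonoidHom.mem_ker, hf]; exact h
  rw [← h3] at h4
  exact ⟨⟨e, he⟩, h4, rfl⟩

theorem exc_main {T E : Subgroup G} (h : Blk 3 T E) (hG : centralizer (pCore 3 G : Set G) ≤ pCore 3 G) {F : Type} [Field F]
    [Fintype F] {n : ℕ} (hcard : Fintype.card F = 3 ^ n)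
    (hiso : Nonempty (↥E ⧸ pCore 3 ↥E ≃* ↥(commutator (Matrix.SpecialLinearGroup (Fin 2) F))))
    (hW : ActsAsSL2OnSection F (commutator (Matrix.SpecialLinearGroup (Fin 2) F)) E (Wo E) (Zo E))
    (hQ : ActsAsSL2OnSection F (commutator (Matrix.SpecialLinearGroup (Fin 2) F)) E (Qo E) (Wo E))
    (hQQ : ⁅Qo E, Qo E⁆ = Zo E) (hcz : Nat.card (Zo E) = 3 ^ n)
    (hnq : ∀ b : G, b ∈ baumannSubgroupOf 3 T → b ∉ centralizer (Wo E : Set G) →
      ¬ ⁅⁅Qo E, zpowers b⁆, zpowers b⁆ ≤ Zo E) : centralizer (WE 3 E : Set G) ≤ normalizer (E : Set G) := by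
  have hfin : Finite F := Finite.of_fintype F
  have h3 : (3 : F) = 0 := by
    have h1 := FiniteField.cast_card_eq_zero F
    rw [hcard] at h1
    push_cast at h1
    have hn : n ≠ 0 := by
      rintro rfl
      have := Fintype.one_lt_card (α := F)
      rw [hcard] at this
      simp at this
    exact (pow_eq_zero_iff hn).mp h1
  obtain ⟨sW⟩ := natSec_of hW
  obtain ⟨sQ⟩ := natSec_of hQ
  set P := pCore 3 G with hP
  have hQE : Qo E ≤ E := pCoreOf_le E
  have hWQ : Wo E ≤ Qo E := OZ_le _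
  have hZW : Zo E ≤ Wo E := inf_le_left
  have hQcen : Qo E ≤ centralizer (Wo E : Set G) := le_centralizer_OZ _
  have hρQ : ∀ q ∈ Qo E, sQ.ρ q = 1 := fun q hq => sQ.ρ_eq_one (hQE hq) fun v hv => hZW (by
    rw [← hQQ]; exact commutator_mem_commutator hq hv)
  have hρW : ∀ q ∈ Qo E, sW.ρ q = 1 := fun q hq => sW.ρ_eq_one (hQE hq) fun v hv => by
    have : ⁅q, v⁆ = 1 := by
      rw [commutatorElement_eq_one_iff_mul_comm]
      exact (mem_centralizer_iff.mp (hQcen hq) v hv).symm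
    rw [this]; exact one_mem _
  have kQ := ker_eq sQ hiso hρQ
  have kW := ker_eq sW hiso hρW
  -- the alternative
  have hEW : E ≤ normalizer (Wo E : Set G) := sQ.nor₀
  have hEQ : E ≤ normalizer (Qo E : Set G) := sQ.nor
  have hEX : E ≤ normalizer ((⁅P, E⁆ : Subgroup G) : Set G) := normalizer_commutator_ge_right _ _
  have hXQ : ⁅P, E⁆ ≤ Qo E := comm_pCore_le h hG
  have hZ1 : ⁅Qo E, Qo E⁆ ≠ ⊥ := by
    rw [hQQ]
    intro hb
    rw [hb, Subgroup.card_bot] at hcz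
    have h6 : 1 < Fintype.card F := Fintype.one_lt_card
    omega
  have halt : ∀ X : Subgroup G, Wo E ≤ X → X ≤ Qo E → E ≤ normalizer (X : Set G) → X = Wo E ∨ X = Qo E := by
    rcases h.alt with h1 | ⟨h1, -⟩
    · exfalso
      apply hZ1
      rw [commutator_eq_bot_iff_le_centralizer]
      have h2 : Qo E = Wo E := h1
      nth_rewrite 2 [h2]
      exact hQcen
    · exact h1
  rcases halt (⁅P, E⁆ ⊔ Wo E) le_sup_right (sup_le hXQ hWQ) (le_normalizer_sup hEX hEW) with h1 | h1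
  · exact small h hG (le_sup_left.trans h1.le)
  -- `[P, E] = Q`
  have hbig : ⁅P, E⁆ = Qo E := by
    apply le_antisymm hXQ
    obtain ⟨m1, m2, m3, m4⟩ := h.main84 hG
    have hEWE : E ≤ normalizer (WE 3 E : Set G) := normalizer_commutator_ge_right _ _
    have hidem : ⁅WE 3 E, E⁆ = WE 3 E := by
      have := commutator_pRes_idem ((isPGroup_pCoreOf 3 E).to_le (OZ_le _) : IsPGroup 3 (Wo E)) hEW
      rwa [h.res] at this
    have hWEX : WE 3 E ≤ ⁅P, E⁆ := by
      rw [← hidem]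
      exact commutator_mono (m1.trans (OZ_le _)) le_rfl
    have hZX : Zo E ≤ ⁅P, E⁆ := by
      rw [← hQQ, commutator_le]
      intro a ha c hc
      rw [← h1] at ha hc
      obtain ⟨a', ha', w, hw, rfl⟩ := exists_mul_of_mem_sup_of_le ((hWQ.trans hQE).trans hEX) ha
      obtain ⟨c', hc', w', hw', rfl⟩ := exists_mul_of_mem_sup_of_le ((hWQ.trans hQE).trans hEX) hc
      have key : ∀ a c w : G, a ∈ Qo E → c ∈ Qo E → w ∈ Wo E → ⁅a * w, c⁆ = ⁅a, c⁆ := by
        intro a c w ha hc hw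
        have : ⁅w, c⁆ = 1 := by
          rw [commutatorElement_eq_one_iff_mul_comm]; exact mem_centralizer_iff.mp (hQcen hc) w hw
        rw [commutatorElement_mul_left_eq_conj_mul, this]; group
      rw [key a' _ w (hXQ ha') (mul_mem (hXQ hc') (hWQ hw')) hw, ← commutatorElement_inv,
        key c' a' w' (hXQ hc') (hXQ ha') hw', commutatorElement_inv, commutatorElement_def]
      exact mul_mem (mul_mem (mul_mem ha' hc') (inv_mem ha')) (inv_mem hc')
    have hWX : Wo E ≤ ⁅P, E⁆ := by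
      rcases h.irr (WE 3 E ⊔ Zo E) le_sup_right (sup_le (commutator_le_left_of_le hEW) hZW)
        (le_normalizer_sup hEWE sW.nor₀) with h2 | h2
      · exfalso
        have h4 : WE 3 E ≤ centralizer (E : Set G) := (le_sup_left.trans h2.le).trans inf_le_right
        have h5 : WE 3 E = ⊥ := by
          rw [← hidem, commutator_eq_bot_iff_le_centralizer]; exact h4
        apply m4
        refine m2.trans ?_
        rwa [commutator_eq_bot_iff_le_centralizer] at h5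
      · exact h2.ge.trans (sup_le hWEX hZX)
    rw [← h1]
    exact sup_le le_rfl hWX
  -- the quaternion elements
  have hi : (⁅up (1 : F), lo (1 : F)⁆ : SL2 F) ∈ commutator (SL2 F) := commutator_mem_commutator (mem_top _) (mem_top _)
  have hiM : ((⁅up (1 : F), lo (1 : F)⁆ : SL2 F) : Matrix (Fin 2) (Fin 2) F) = !![0, -1; 1, 0] := by
    rw [cc_eq, h3]
  have hupi : (up (1 : F))⁻¹ = up (-1) := by
    rw [inv_eq_iff_mul_eq_one, up_mul, add_neg_cancel, up_zero]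
  have hj : up (1 : F) * ⁅up (1 : F), lo (1 : F)⁆ * (up (1 : F))⁻¹ ∈ commutator (SL2 F) :=
    (inferInstance : (commutator (SL2 F)).Normal).conj_mem _ hi _
  have hjM : ((up (1 : F) * ⁅up (1 : F), lo (1 : F)⁆ * (up (1 : F))⁻¹ : SL2 F) : Matrix (Fin 2) (Fin 2) F) =
      !![1, 1; 1, -1] := by
    rw [hupi]
    change !![1, (1 : F); 0, 1] * ((⁅up (1 : F), lo (1 : F)⁆ : SL2 F) : Matrix (Fin 2) (Fin 2) F) * !![1, -1; 0, 1] = _
    rw [hiM]
    ext i j
    fin_cases i <;> fin_cases j <;> simp [Matrix.mul_apply, Fin.sum_univ_two]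
    linear_combination -h3
  obtain ⟨i0, hi0, hi0'⟩ := sQ.ρ_surj _ hi
  obtain ⟨j0, hj0, hj0'⟩ := sQ.ρ_surj _ hj
  rw [← hi0'] at hiM
  rw [← hj0'] at hjM
  set c := ⁅i0, j0⁆ with hc
  have hcE : c ∈ E := by
    rw [hc, commutatorElement_def]
    exact mul_mem (mul_mem (mul_mem hi0 hj0) (inv_mem hi0)) (inv_mem hj0)
  have hcM : (sQ.ρ c : Matrix (Fin 2) (Fin 2) F) = -1 := by
    have e1 : sQ.ρ c = sQ.ρ i0 * sQ.ρ j0 * (sQ.ρ i0)⁻¹ * (sQ.ρ j0)⁻¹ := by
      rw [hc, commutatorElement_def, sQ.ρ_mul _ (mul_mem (mul_mem hi0 hj0) (inv_mem hi0)) _ (inv_mem hj0),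
        sQ.ρ_mul _ (mul_mem hi0 hj0) _ (inv_mem hi0), sQ.ρ_mul _ hi0 _ hj0, sQ.ρ_inv hi0, sQ.ρ_inv hj0]
    rw [e1]
    change (sQ.ρ i0 : Matrix (Fin 2) (Fin 2) F) * (sQ.ρ j0 : Matrix (Fin 2) (Fin 2) F) *
      (sQ.ρ i0 : Matrix (Fin 2) (Fin 2) F).adjugate * (sQ.ρ j0 : Matrix (Fin 2) (Fin 2) F).adjugate = -1
    rw [hiM, hjM, Matrix.adjugate_fin_two_of, Matrix.adjugate_fin_two_of]
    ext i j
    fin_cases i <;> fin_cases j <;> simp [Matrix.mul_apply, Fin.sum_univ_two] <;> linear_combination h3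
  have hcc : c * c ∈ Qo E := by
    apply kQ _ (mul_mem hcE hcE)
    rw [sQ.ρ_mul _ hcE _ hcE]
    apply Subtype.ext
    change (sQ.ρ c : Matrix (Fin 2) (Fin 2) F) * (sQ.ρ c : Matrix (Fin 2) (Fin 2) F) = 1
    rw [hcM]; simp
  obtain ⟨k, hk⟩ := isPGroup_pCoreOf 3 E ⟨_, hcc⟩
  have hk' : (c * c) ^ 3 ^ k = 1 := by
    have := congrArg Subtype.val hk
    simpa using this
  set t := c ^ 3 ^ k with ht
  have htE : t ∈ E := pow_mem hcE _
  have htt : t * t = 1 := by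
    rw [ht, ← pow_add, ← two_mul, pow_mul, pow_two]; exact hk'
  have htM : (sQ.ρ t : Matrix (Fin 2) (Fin 2) F) = -1 := by
    rw [ht, sQ.ρ_pow hcE]
    have : ((sQ.ρ c ^ 3 ^ k : SL2 F) : Matrix (Fin 2) (Fin 2) F) = (sQ.ρ c : Matrix (Fin 2) (Fin 2) F) ^ 3 ^ k :=
      Matrix.SpecialLinearGroup.coe_pow _ _
    rw [this, hcM]
    exact Odd.neg_one_pow (Odd.pow (by decide))
  have hti : t⁻¹ = t := inv_eq_of_mul_eq_one_right htt
  have htc : t⁻¹ * c ∈ Qo E := by
    rw [hti]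
    apply kQ _ (mul_mem htE hcE)
    rw [sQ.ρ_mul _ htE _ hcE]
    apply Subtype.ext
    change (sQ.ρ t : Matrix (Fin 2) (Fin 2) F) * (sQ.ρ c : Matrix (Fin 2) (Fin 2) F) = 1
    rw [htM, hcM]; simp
  let x : Exc T E F :=
    { blk := h, hG := hG, h3 := h3, fin := hfin, sQ := sQ, sW := sW, QQ := hQQ
      cardZ := by rw [hcz, Nat.card_eq_fintype_card, hcard]
      kQ := kQ, kW := kW, nq := hnq, big := hbig, t := t, i0 := i0, j0 := j0, ht := htE, hi0 := hi0, hj0 := hj0, tt := htt,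
      tρ := htM, iρ := hiM, jρ := hjM, ijt := htc }
  obtain ⟨b, hb⟩ := x.exists_quad
  exact x.stepII hb

theorem main {p : ℕ} [hp : Fact p.Prime] {T E : Subgroup G} (hT : IsSyl p T ⊤)
    (hG : centralizer (pCore p G : Set G) ≤ pCore p G) (hE : IsBaumannBlock p T E) :
    centralizer (WE p E : Set G) ≤ normalizer (E : Set G) := by
  have h := blk_of hT hE
  have hsm : pCoreOf p E = OZ p (pCoreOf p E) → centralizer (WE p E : Set G) ≤ normalizer (E : Set G) := fun hq =>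
    small h hG ((comm_pCore_le h hG).trans hq.le)
  obtain ⟨-, -, -, -, h5⟩ := hE
  rcases h5 with ⟨F, hF, hFin, n, hn, hiso, hact, hq⟩ | ⟨-, m, -, -, hq⟩
  · rcases hq with hq | ⟨rfl, hact2, hq1, -, hq2, hq3, hq4⟩
    · exact hsm hq
    · rw [hq2] at hq3 hq4
      exact exc_main h hG hn hiso hact hact2 hq1 hq3 hq4
  · exact hsm hq

end Cfsg.Agent.Lib.H56Bau
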