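import Cfsg.Agent.Lib.BBPair13
import Cfsg.Agent.Lib.H56BauO

/-!
Baumann blocks (S2987), piece P5 (helper99): semilinearity of the action of the normalizer of a block.
-/

set_option autoImplicit false
set_option linter.unusedSectionVars false

namespace Cfsg.Agent.Lib.BN

open Subgroup Cfsg Cfsg.Agent.Lib.LocBase Cfsg.Agent.Lib.PReduced Cfsg.Agent.Lib.BBlock
open scoped commutatorElement Matrix

universe u
variable {G : Type u} [Group G] [Finite G] {p : ℕ} [hp : Fact p.Prime]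

theorem p5_top {K : Type} [Field K] [Fintype K] (h3 : 3 < Fintype.card K) :
    commutator (Matrix.SpecialLinearGroup (Fin 2) K) = ⊤ :=
  (SLQuasi.quasisimple_SL (F := K) (n := 2) le_rfl (fun _ => SLQuasi.exists_sq_ne_one h3)).1.1

/-- the element `[1,a;0,1]` -/
def p5_up {K : Type} [Field K] (a : K) : Matrix.SpecialLinearGroup (Fin 2) K := ⟨!![1, a; 0, 1], by simp [Matrix.det_fin_two]⟩

/-- the element `[1,0;a,1]` -/
def p5_lo {K : Type} [Field K] (a : K) : Matrix.SpecialLinearGroup (Fin 2) K := ⟨!![1, 0; a, 1], by simp [Matrix.det_fin_two]⟩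

theorem p5_up_mulVec {K : Type} [Field K] (a : K) (v : Fin 2 → K) :
    ((p5_up a : Matrix.SpecialLinearGroup (Fin 2) K) : Matrix (Fin 2) (Fin 2) K) *ᵥ v = ![v 0 + a * v 1, v 1] := by
  ext i
  fin_cases i <;> simp [p5_up, Matrix.mulVec, dotProduct, Fin.sum_univ_two]

theorem p5_lo_mulVec {K : Type} [Field K] (a : K) (v : Fin 2 → K) :
    ((p5_lo a : Matrix.SpecialLinearGroup (Fin 2) K) : Matrix (Fin 2) (Fin 2) K) *ᵥ v = ![v 0, a * v 0 + v 1] := by
  ext i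
  fin_cases i <;> simp [p5_lo, Matrix.mulVec, dotProduct, Fin.sum_univ_two]

/-- an additive map commuting with `SL₂` is a scalar -/
theorem p5_commutant {K : Type} [Field K] (χ : (Fin 2 → K) →+ (Fin 2 → K))
    (h : ∀ (r : Matrix.SpecialLinearGroup (Fin 2) K) (v : Fin 2 → K),
      χ ((r : Matrix (Fin 2) (Fin 2) K) *ᵥ v) = (r : Matrix (Fin 2) (Fin 2) K) *ᵥ χ v) (v : Fin 2 → K) :
    χ v = (χ ![1, 0] 0) • v := by
  -- `χ ![0, 1]` has first coordinate `0`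
  have h1 : ∀ a : K, χ ![a, 0] 1 = 0 := by
    intro a
    have h2 := h (p5_up 1) ![a, 0]
    rw [p5_up_mulVec, p5_up_mulVec] at h2
    have h3 := congrFun h2 0
    simp at h3
    exact h3
  have h2 : ∀ a : K, χ ![0, a] 0 = 0 := by
    intro a
    have h2 := h (p5_lo 1) ![0, a]
    rw [p5_lo_mulVec, p5_lo_mulVec] at h2
    have h3 := congrFun h2 1
    simp at h3
    exact h3
  -- `χ ![a * b, 0] 0 = a * χ ![0, b] 1`
  have h3 : ∀ a b : K, χ ![a * b, 0] 0 = a * χ ![0, b] 1 := by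
    intro a b
    have h4 := h (p5_up a) ![0, b]
    rw [p5_up_mulVec, p5_up_mulVec] at h4
    have h5 : (![(![0, b] : Fin 2 → K) 0 + a * (![0, b] : Fin 2 → K) 1, (![0, b] : Fin 2 → K) 1] : Fin 2 → K) =
        ![a * b, 0] + ![0, b] := by
      ext i
      fin_cases i <;> simp
    rw [h5, map_add] at h4
    have h6 := congrFun h4 0
    simp only [Pi.add_apply, Matrix.cons_val_zero] at h6
    rw [h2 b] at h6
    simpa using h6
  have h4 : χ ![0, 1] 1 = χ ![1, 0] 0 := by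
    have := h3 1 1
    rw [one_mul, one_mul] at this
    exact this.symm
  have h5 : ∀ b : K, χ ![0, b] 1 = b * χ ![1, 0] 0 := by
    intro b
    have h6 := h3 1 b
    have h7 := h3 b 1
    rw [one_mul, one_mul] at h6
    rw [mul_one, h4] at h7
    rw [← h6, h7]
  have h6 : v = ![v 0, 0] + ![0, v 1] := by
    ext i
    fin_cases i <;> simp
  have h7 : χ ![v 0, 0] 0 = v 0 * χ ![1, 0] 0 := by
    have := h3 (v 0) 1
    rw [mul_one, h4] at this
    exact this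
  have h8 : χ v = χ ![v 0, 0] + χ ![0, v 1] := by rw [← map_add, ← h6]
  ext i
  rw [h8]
  fin_cases i
  · simp only [Fin.zero_eta, Pi.add_apply, Pi.smul_apply, smul_eq_mul]
    rw [h2, h7, add_zero, mul_comm]
  · simp only [Fin.mk_one, Pi.add_apply, Pi.smul_apply, smul_eq_mul]
    rw [h1, h5, zero_add, mul_comm]

section Phi
variable {K : Type} [Field K] {E U U₀ : Subgroup G} (s : H56Bau.NatSec K E U U₀)

/-- lift of a vector -/
noncomputable def p5_lift (v : Fin 2 → K) : G := (s.ψ_surj v).choose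

theorem p5_lift_mem (v : Fin 2 → K) : p5_lift s v ∈ U := (s.ψ_surj v).choose_spec.1

theorem p5_ψ_lift (v : Fin 2 → K) : s.ψ (p5_lift s v) = v := (s.ψ_surj v).choose_spec.2

/-- the additive map induced by `h` -/
noncomputable def p5_phi (h : G) (v : Fin 2 → K) : Fin 2 → K := s.ψ (h * p5_lift s v * h⁻¹)

variable {h : G} (hU : h ∈ normalizer (U : Set G)) (hU₀ : h ∈ normalizer (U₀ : Set G))

include hU hU₀

theorem p5_phi_ψ {u : G} (hu : u ∈ U) : s.ψ (h * u * h⁻¹) = p5_phi s h (s.ψ u) := by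
  have h1 : h * u * h⁻¹ ∈ U := (mem_normalizer_iff.1 hU u).1 hu
  have h2 : h * p5_lift s (s.ψ u) * h⁻¹ ∈ U := (mem_normalizer_iff.1 hU _).1 (p5_lift_mem s _)
  refine (s.ψ_eq h1 h2).2 ?_
  have h3 : (h * u * h⁻¹)⁻¹ * (h * p5_lift s (s.ψ u) * h⁻¹) = h * (u⁻¹ * p5_lift s (s.ψ u)) * h⁻¹ := by group
  rw [h3]
  exact (mem_normalizer_iff.1 hU₀ _).1 ((s.ψ_eq hu (p5_lift_mem s _)).1 (p5_ψ_lift s _).symm)

theorem p5_phi_add (v w : Fin 2 → K) : p5_phi s h (v + w) = p5_phi s h v + p5_phi s h w := by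
  have h1 : v + w = s.ψ (p5_lift s v * p5_lift s w) := by
    rw [s.ψ_mul _ (p5_lift_mem s v) _ (p5_lift_mem s w), p5_ψ_lift, p5_ψ_lift]
  have h2 : h * (p5_lift s v * p5_lift s w) * h⁻¹ = (h * p5_lift s v * h⁻¹) * (h * p5_lift s w * h⁻¹) := by group
  rw [h1, ← p5_phi_ψ s hU hU₀ (mul_mem (p5_lift_mem s v) (p5_lift_mem s w)), h2,
    s.ψ_mul _ ((mem_normalizer_iff.1 hU _).1 (p5_lift_mem s v)) _ ((mem_normalizer_iff.1 hU _).1 (p5_lift_mem s w))]
  rfl

theorem p5_phi_mul {k : G} (kU : k ∈ normalizer (U : Set G)) (v : Fin 2 → K) :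
    p5_phi s (h * k) v = p5_phi s h (p5_phi s k v) := by
  have h2 : h * k * p5_lift s v * (h * k)⁻¹ = h * (k * p5_lift s v * k⁻¹) * h⁻¹ := by group
  have h3 : p5_phi s (h * k) v = s.ψ (h * (k * p5_lift s v * k⁻¹) * h⁻¹) := by
    show s.ψ (h * k * p5_lift s v * (h * k)⁻¹) = _
    rw [h2]
  rw [h3, p5_phi_ψ s hU hU₀ ((mem_normalizer_iff.1 kU _).1 (p5_lift_mem s v))]
  rfl

omit hU hU₀ in
theorem p5_phi_one (v : Fin 2 → K) : p5_phi s 1 v = v := by
  show s.ψ (1 * p5_lift s v * 1⁻¹) = v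
  rw [one_mul, inv_one, mul_one, p5_ψ_lift]

/-- the additive automorphism induced by `h` -/
noncomputable def p5_equiv : (Fin 2 → K) ≃+ (Fin 2 → K) where
  toFun := p5_phi s h
  invFun := p5_phi s h⁻¹
  left_inv v := by
    rw [← p5_phi_mul s (inv_mem hU) (inv_mem hU₀) hU, inv_mul_cancel, p5_phi_one]
  right_inv v := by
    rw [← p5_phi_mul s hU hU₀ (inv_mem hU), mul_inv_cancel, p5_phi_one]
  map_add' := p5_phi_add s hU hU₀

theorem p5_phi_act (hE : h ∈ normalizer (E : Set G)) {e : G} (he : e ∈ E) (v : Fin 2 → K) :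
    p5_phi s h ((s.ρ e : Matrix (Fin 2) (Fin 2) K) *ᵥ v) = (s.ρ (h * e * h⁻¹) : Matrix (Fin 2) (Fin 2) K) *ᵥ p5_phi s h v := by
  have h1 := s.act e he _ (p5_lift_mem s v)
  rw [p5_ψ_lift] at h1
  have he' : h * e * h⁻¹ ∈ E := (mem_normalizer_iff.1 hE _).1 he
  have h4 : e * p5_lift s v * e⁻¹ ∈ U := (mem_normalizer_iff.1 (s.nor he) _).1 (p5_lift_mem s v)
  rw [← h1, ← p5_phi_ψ s hU hU₀ h4]
  have h5 : h * (e * p5_lift s v * e⁻¹) * h⁻¹ = (h * e * h⁻¹) * (h * p5_lift s v * h⁻¹) * (h * e * h⁻¹)⁻¹ := by group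
  rw [h5, s.act _ he' _ ((mem_normalizer_iff.1 hU _).1 (p5_lift_mem s v))]
  rfl

end Phi

theorem p5_semi {K : Type} [Field K] [Fintype K] (h3 : 3 < Fintype.card K) {E U U₀ : Subgroup G} (s : H56Bau.NatSec K E U U₀)
    {h : G} (hE : h ∈ normalizer (E : Set G)) (hU : h ∈ normalizer (U : Set G)) (hU₀ : h ∈ normalizer (U₀ : Set G)) :
    ∃ σ : K ≃+* K, ∀ (c : K) (v : Fin 2 → K), p5_equiv s hU hU₀ (c • v) = σ c • p5_equiv s hU hU₀ v := by
  obtain ⟨φ, hφ⟩ : ∃ φ, φ = p5_equiv s hU hU₀ := ⟨_, rfl⟩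
  have hφv : ∀ v, φ v = p5_phi s h v := fun v => by rw [hφ]; rfl
  have hact : ∀ e ∈ E, ∀ v, φ ((s.ρ e : Matrix (Fin 2) (Fin 2) K) *ᵥ v) =
      (s.ρ (h * e * h⁻¹) : Matrix (Fin 2) (Fin 2) K) *ᵥ φ v := by
    intro e he v
    rw [hφv, hφv]
    exact p5_phi_act s hU hU₀ hE he v
  have hact' : ∀ r : Matrix.SpecialLinearGroup (Fin 2) K, ∃ r' : Matrix.SpecialLinearGroup (Fin 2) K,
      ∀ v, φ ((r' : Matrix (Fin 2) (Fin 2) K) *ᵥ v) = (r : Matrix (Fin 2) (Fin 2) K) *ᵥ φ v := by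
    intro r
    obtain ⟨e, he, rfl⟩ := s.ρ_surj r (by rw [p5_top h3]; exact mem_top _)
    have he' : h⁻¹ * e * h ∈ E := by
      have := (mem_normalizer_iff.1 (inv_mem hE) e).1 he
      rwa [inv_inv] at this
    refine ⟨s.ρ (h⁻¹ * e * h), fun v => ?_⟩
    rw [hact _ he']
    have h1 : h * (h⁻¹ * e * h) * h⁻¹ = e := by group
    rw [h1]
  have key : ∀ (c : K) (v : Fin 2 → K), φ (c • φ.symm v) = (φ (c • φ.symm ![1, 0]) 0) • v := by
    intro c v
    let χ : (Fin 2 → K) →+ (Fin 2 → K) :=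
      { toFun := fun v => φ (c • φ.symm v)
        map_zero' := by simp
        map_add' := fun v w => by simp }
    refine p5_commutant χ (fun r v => ?_) v
    obtain ⟨r', hr'⟩ := hact' r
    show φ (c • φ.symm _) = _ *ᵥ φ (c • φ.symm v)
    have h1 : φ.symm ((r : Matrix (Fin 2) (Fin 2) K) *ᵥ v) = (r' : Matrix (Fin 2) (Fin 2) K) *ᵥ φ.symm v := by
      rw [AddEquiv.symm_apply_eq, hr', AddEquiv.apply_symm_apply]
    rw [h1, ← Matrix.mulVec_smul, hr']
  obtain ⟨σ, hσ⟩ : ∃ σ : K → K, ∀ c, ∀ v, φ (c • v) = σ c • φ v :=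
    ⟨fun c => φ (c • φ.symm ![1, 0]) 0, fun c v => by
      have := key c (φ v)
      rwa [AddEquiv.symm_apply_apply] at this⟩
  have huniq : ∀ a b : K, (∀ v : Fin 2 → K, a • φ v = b • φ v) → a = b := by
    intro a b hab
    have h1 := hab (φ.symm ![1, 0])
    rw [AddEquiv.apply_symm_apply] at h1
    have := congrFun h1 0
    simpa using this
  let σ' : K →+* K :=
    { toFun := σ
      map_one' := huniq _ _ fun v => by rw [← hσ, one_smul, one_smul]
      map_mul' := fun a b => huniq _ _ fun v => by rw [← hσ, mul_smul, mul_smul, hσ, hσ]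
      map_zero' := huniq _ _ fun v => by rw [← hσ, zero_smul, zero_smul, map_zero]
      map_add' := fun a b => huniq _ _ fun v => by rw [← hσ, add_smul, add_smul, map_add, hσ, hσ] }
  have hbij : Function.Bijective σ' := Finite.injective_iff_bijective.1 σ'.injective
  refine ⟨RingEquiv.ofBijective σ' hbij, fun c v => ?_⟩
  rw [← hφ, hσ]
  rfl

theorem semi {K : Type} [Field K] [Fintype K] (h3 : 3 < Fintype.card K) {E U U₀ : Subgroup G} (s : H56Bau.NatSec K E U U₀)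
    {h : G} (hE : h ∈ normalizer (E : Set G)) (hU : h ∈ normalizer (U : Set G)) (hU₀ : h ∈ normalizer (U₀ : Set G)) :
    ∃ (φ : (Fin 2 → K) ≃+ (Fin 2 → K)) (σ : K ≃+* K), (∀ u ∈ U, s.ψ (h * u * h⁻¹) = φ (s.ψ u)) ∧
      ∀ (c : K) (v : Fin 2 → K), φ (c • v) = σ c • φ v := by
  obtain ⟨σ, hσ⟩ := p5_semi h3 s hE hU hU₀
  exact ⟨p5_equiv s hU hU₀, σ, fun u hu => p5_phi_ψ s hU hU₀ hu, hσ⟩

theorem p5_aut_comm {K : Type} [Field K] [Fintype K] (σ τ : K ≃+* K) (c : K) : σ (τ c) = τ (σ c) := by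
  by_cases hc : c = 0
  · simp [hc]
  obtain ⟨g, hg⟩ := IsCyclic.exists_generator (α := Kˣ)
  have hp1 : ∀ y : Kˣ, ∃ n : ℤ, y = g ^ n := fun y => by
    obtain ⟨n, hn⟩ := mem_zpowers_iff.1 (hg y)
    exact ⟨n, hn.symm⟩
  obtain ⟨i, hi⟩ := hp1 (Units.map (σ : K →* K) g)
  obtain ⟨j, hj⟩ := hp1 (Units.map (τ : K →* K) g)
  obtain ⟨k, hk⟩ := hp1 (Units.mk0 c hc)
  have hi' : ∀ n : ℤ, Units.map (σ : K →* K) (g ^ n) = g ^ (i * n) := fun n => by
    rw [map_zpow, hi, zpow_mul]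
  have hj' : ∀ n : ℤ, Units.map (τ : K →* K) (g ^ n) = g ^ (j * n) := fun n => by
    rw [map_zpow, hj, zpow_mul]
  have h1 : Units.map (σ : K →* K) (Units.map (τ : K →* K) (Units.mk0 c hc)) =
      Units.map (τ : K →* K) (Units.map (σ : K →* K) (Units.mk0 c hc)) := by
    rw [hk, hj', hi', hi', hj']
    congr 1
    ring
  exact congrArg Units.val h1

theorem sl_perfect {K : Type} [Field K] [Fintype K] (h3 : 3 < Fintype.card K) {E F U U₀ : Subgroup G}
    (s : H56Bau.NatSec K E U U₀) (hE : F ≤ normalizer (E : Set G)) (hU : F ≤ normalizer (U : Set G))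
    (hU₀ : F ≤ normalizer (U₀ : Set G)) (hF : ⁅F, F⁆ = F) {f : G} (hf : f ∈ F) :
    ∃ e ∈ E, ∀ u ∈ U, ⁅e⁻¹ * f, u⁆ ∈ U₀ := by
  classical
  have hcomm : commutator ↥F = ⊤ := by
    apply map_injective F.subtype_injective
    rw [map_subtype_commutator, hF, ← MonoidHom.range_eq_map, range_subtype]
  have htriv : ∀ {A : Type} [CommGroup A] (θ : ↥F →* A) (x : ↥F), θ x = 1 := by
    intro A _ θ x
    have h1 : x ∈ commutator ↥F := by rw [hcomm]; exact mem_top _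
    exact Abelianization.commutator_subset_ker θ h1
  -- the field automorphisms
  have hs : ∀ x : ↥F, ∃ σ : K ≃+* K, ∀ (c : K) (v : Fin 2 → K),
      p5_phi s (x : G) (c • v) = σ c • p5_phi s (x : G) v := fun x => p5_semi h3 s (hE x.2) (hU x.2) (hU₀ x.2)
  choose σ hσ using hs
  have hinj : ∀ (x : ↥F) (a b : K), (∀ v : Fin 2 → K, a • p5_phi s (x : G) v = b • p5_phi s (x : G) v) → a = b := by
    intro x a b hab
    have h1 := hab ((p5_equiv s (hU x.2) (hU₀ x.2)).symm ![1, 0])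
    have h4 : p5_phi s (x : G) ((p5_equiv s (hU x.2) (hU₀ x.2)).symm ![1, 0]) = ![1, 0] :=
      (p5_equiv s (hU x.2) (hU₀ x.2)).apply_symm_apply _
    rw [h4] at h1
    have := congrFun h1 0
    simpa using this
  have hmul : ∀ x y : ↥F, ∀ c, σ (x * y) c = σ x (σ y c) := by
    intro x y c
    refine hinj (x * y) _ _ fun v => ?_
    rw [← hσ, Subgroup.coe_mul, p5_phi_mul s (hU x.2) (hU₀ x.2) (hU y.2), p5_phi_mul s (hU x.2) (hU₀ x.2) (hU y.2), hσ, hσ]
  let _ : CommGroup (K ≃+* K) := { (inferInstance : Group (RingAut K)) with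
    mul_comm := fun a b => RingEquiv.ext fun c => p5_aut_comm a b c }
  have hσ1 : ∀ (x : ↥F) (c : K), σ x c = c := by
    intro x c
    let θ : ↥F →* (K ≃+* K) := MonoidHom.mk' σ (fun a b => RingEquiv.ext fun c => hmul a b c)
    have h1 : θ x = 1 := htriv θ x
    have h2 : σ x = 1 := h1
    rw [h2]
    rfl
  -- the linear maps
  let L : ↥F →* ((Fin 2 → K) →ₗ[K] (Fin 2 → K)) :=
    { toFun := fun x =>
        { toFun := p5_phi s (x : G)
          map_add' := p5_phi_add s (hU x.2) (hU₀ x.2)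
          map_smul' := fun c v => by rw [hσ, hσ1]; rfl }
      map_one' := LinearMap.ext fun v => p5_phi_one s v
      map_mul' := fun x y => LinearMap.ext fun v => p5_phi_mul s (hU x.2) (hU₀ x.2) (hU y.2) v }
  have hdet : LinearMap.det (L ⟨f, hf⟩) = 1 := by
    have h1 := htriv (MonoidHom.toHomUnits ((LinearMap.det (M := Fin 2 → K)).comp L)) ⟨f, hf⟩
    exact congrArg Units.val h1
  have hdet' : (LinearMap.toMatrix' (L ⟨f, hf⟩)).det = 1 := by rw [LinearMap.det_toMatrix', hdet]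
  obtain ⟨e, he, her⟩ := s.ρ_surj ⟨LinearMap.toMatrix' (L ⟨f, hf⟩), hdet'⟩ (by rw [p5_top h3]; exact mem_top _)
  refine ⟨e, he, fun u hu => ?_⟩
  have hfu : f * u * f⁻¹ ∈ U := (mem_normalizer_iff.1 (hU hf) u).1 hu
  have heu : e * u * e⁻¹ ∈ U := (mem_normalizer_iff.1 (s.nor he) u).1 hu
  have h1 : s.ψ (e * u * e⁻¹) = s.ψ (f * u * f⁻¹) := by
    rw [s.act e he u hu, her, p5_phi_ψ s (hU hf) (hU₀ hf) hu]
    show (LinearMap.toMatrix' (L ⟨f, hf⟩)) *ᵥ s.ψ u = _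
    rw [LinearMap.toMatrix'_mulVec]
    rfl
  have h2 := (s.ψ_eq heu hfu).1 h1
  have h4 : ⁅e⁻¹ * f, u⁆ = e⁻¹ * ((f * u * f⁻¹) * (e * u * e⁻¹)⁻¹) * e⁻¹⁻¹ := by
    rw [commutatorElement_def]; group
  rw [h4]
  refine (mem_normalizer_iff.1 (s.nor₀ (inv_mem he)) _).1 ?_
  have h5 := (s.ψ_eq hfu heu).1 h1.symm
  -- `U₀` is the kernel of a homomorphism to a commutative group
  have h6 : s.ψ ((f * u * f⁻¹) * (e * u * e⁻¹)⁻¹) = 0 := by
    rw [s.ψ_mul _ hfu _ (inv_mem heu), s.ψ_inv heu, h1, add_neg_cancel]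
  exact (s.ψ_ker _ (mul_mem hfu (inv_mem heu))).1 h6

end Cfsg.Agent.Lib.BN
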