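import Cfsg.Agent.Lib.BN5
import Cfsg.Agent.Lib.BNP5

/-!
# S2987: type D pairs, inner action for type A (helper78)
-/

set_option autoImplicit false
set_option linter.unusedSectionVars false

namespace Cfsg.Agent.Lib.BN

open Subgroup Cfsg Cfsg.Agent.Lib.LocBase Cfsg.Agent.Lib.PReduced Cfsg.Agent.Lib.BBlock Cfsg.Agent.Lib.BBPair
open scoped commutatorElement

universe u
variable {G : Type u} [Group G] [Finite G] {p : ℕ} [hp : Fact p.Prime]

/-- the data of a type D block with a Sylow 2-subgroup -/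
theorem TyD.data {E S : Subgroup G} (h : NB 3 E) (t : TyD E) (hS : IsSyl 2 S E) :
    pCoreOf 3 E ⊔ S = E ∧ Nat.card ↥(WE 3 E) = 9 ∧ ∃ z, Q8 S z ∧ ∀ w ∈ WE 3 E, z * w * z⁻¹ = w⁻¹ := by
  have hcard : Nat.card E = 2 ^ 3 * Nat.card ↥(pCoreOf 3 E) := by rw [t.card]; norm_num
  have gen := gen_nb (p := 3) (r := 2) (by norm_num) hS hcard
  have hSc := syl_card (p := 3) (r := 2) (by norm_num) hS hcard
  have hSE : S ⊓ E = S := inf_eq_left.mpr hS.le
  obtain ⟨z, hz, hi, -⟩ := t.z S (by rw [hSE, hSc]; norm_num)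
  rw [hSE] at hz
  refine ⟨gen, cardW_nb (p := 3) (r := 2) (by norm_num) h hS.pgroup gen t.cardO, z, hz, ?_⟩
  intro w hw
  have hw1 : z * w * z⁻¹ * w ∈ WE 3 E :=
    mul_mem ((mem_normalizer_iff.mp (h.WE_norm (hS.le hz.mem)) w).mp hw) hw
  have hw2 := (hi w (h.WE_le_OZ hw)).2
  have hw3 := W_inf_nb (p := 3) (r := 2) (by norm_num) hS.pgroup gen hw1 (centralizer_le hS.le hw2)
  exact mul_eq_one_iff_eq_inv.mp hw3

theorem TyD.inner {E F : Subgroup G} (h : NB 3 E) (k : NB 3 F) (tE : TyD E) (tF : TyD F) (hW : WE 3 E = WE 3 F) :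
    F ≤ E ⊔ centralizer (WE 3 E : Set G) := by
  obtain ⟨S, hS⟩ := exists_isSyl 2 E
  obtain ⟨S', hS'⟩ := exists_isSyl 2 F
  obtain ⟨genE, cE, zE, qE, iE⟩ := tE.data h hS
  obtain ⟨genF, cF, zF, qF, iF⟩ := tF.data k hS'
  have hq : ∀ b ∈ S', b * b = zF → b ∈ E ⊔ centralizer (WE 3 E : Set G) := by
    intro b hb hbz
    obtain ⟨a, ha, -, hab⟩ := qE.six (X := WE 3 E) (b := b) cE (hS.le.trans h.WE_norm) iE
      (by rw [hW]; exact k.WE_norm (hS'.le hb)) (by rw [hbz, hW]; exact iF)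
    have e1 : b = a * (a⁻¹ * b) := by group
    rw [e1]
    refine mul_mem ((le_sup_left : E ≤ E ⊔ centralizer (WE 3 E : Set G)) (hS.le ha))
      ((le_sup_right : centralizer (WE 3 E : Set G) ≤ E ⊔ centralizer (WE 3 E : Set G)) ?_)
    rw [mem_centralizer_iff]
    intro x hx
    exact (hab x hx).symm
  conv_lhs => rw [← genF]
  refine sup_le ?_ ?_
  · rw [hW]
    exact k.Q_cent_WE.trans le_sup_right
  · intro b hb
    obtain ⟨b0, hb0, hb0z⟩ := qF.exists_sq
    rcases qF.cases b hb with h1 | h1 | h1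
    · rw [h1]; exact one_mem _
    · rw [h1, ← hb0z]
      exact mul_mem (hq b0 hb0 hb0z) (hq b0 hb0 hb0z)
    · exact hq b hb h1

theorem TyD.pair {T E F B : Subgroup G} (hT : IsSyl 3 T ⊤) (hG : centralizer (pCore 3 G : Set G) ≤ pCore 3 G)
    (hE : IsBaumannBlock 3 T E) (hF : IsBaumannBlock 3 T F) (hs : Subn E ⊤) (tE : TyD E) (tF : TyD F)
    (hW : WE 3 E = WE 3 F) (hB : B.Normal) (hBE : B ≤ normalizer (E : Set G)) (hFB : F ≤ B) (hEB : E ≤ B)
    (hCE : centralizer (WE 3 E : Set G) ≤ normalizer (E : Set G))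
    (hCF : centralizer (WE 3 F : Set G) ≤ normalizer (F : Set G)) : E = F ∨ ⁅E, F⁆ = ⊥ := by
  have h := nb_of hG hT hE
  have k := nb_of hG hT hF
  set C1 := B ⊓ centralizer (WE 3 E : Set G) with hC1
  have hB' : ∀ K : Subgroup G, K ≤ normalizer (B : Set G) := fun K => norm_top _ hB K
  have key : ∀ {X Y : Subgroup G}, Y ≤ X ⊔ centralizer (WE 3 E : Set G) → centralizer (WE 3 E : Set G) ≤ normalizer (X : Set G) →
      X ≤ B → Y ≤ B → Y ≤ X ⊔ C1 := by
    intro X Y hYX hCX hXB hYB f hf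
    obtain ⟨e, he, c, hc, hfe⟩ := exists_mul_of_mem_sup_of_le hCX (hYX hf)
    have h2 : c = e⁻¹ * f := by rw [hfe]; group
    have h3 : c ∈ B := by
      rw [h2]; exact mul_mem (inv_mem (hXB he)) (hYB hf)
    rw [hfe]
    exact mul_mem ((le_sup_left : X ≤ X ⊔ C1) he) ((le_sup_right : C1 ≤ X ⊔ C1) ⟨h3, hc⟩)
  have h1 : F ≤ E ⊔ C1 := key (TyD.inner h k tE tF hW) hCE hEB hFB
  have h2 : E ≤ F ⊔ C1 := by
    refine key ?_ (by rw [hW]; exact hCF) hFB hEB
    rw [hW]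
    exact TyD.inner k h tF tE hW.symm
  have heq : E ⊔ C1 = F ⊔ C1 := le_antisymm (sup_le h2 le_sup_right) (sup_le h1 le_sup_right)
  have hC1B : B ≤ normalizer (C1 : Set G) :=
    le_normalizer_inf (hB' B) (le_normalizer_centralizer (WE_char hBE))
  have hC1F : C1 ≤ normalizer (F : Set G) := by
    refine (inf_le_right.trans ?_).trans hCF
    rw [hW]
  have s1 : Subn F (F ⊔ C1) := Subn.of_normal le_sup_left (sup_le le_normalizer hC1F)
  have s2 : Subn (F ⊔ C1) B := by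
    rw [← heq]
    exact Subn.of_normal (sup_le hEB inf_le_left) (le_normalizer_sup hBE hC1B)
  have s3 : Subn B ⊤ := Subn.of_normal le_top (hB' ⊤)
  exact equal_or_commute hG ⟨T, hT, hE⟩ ⟨T, hT, hF⟩ hs ((s1.trans s2).trans s3)

theorem TyA.perfect {E F : Subgroup G} {K : Type} [Field K] [Fintype K] {n : ℕ} (hkE : KB p E) (tE : TyA p E K n)
    (hFE : F ≤ normalizer (E : Set G)) (hperf : ⁅F, F⁆ = F) : F ≤ E ⊔ centralizer (WE p E : Set G) := by
  obtain ⟨s⟩ := H56Bau.natSec_of tE.acts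
  have hNO : normalizer (E : Set G) ≤ normalizer (OZ p (pCoreOf p E) : Set G) :=
    (normalizer_le_normalizer_pCoreOf p _).trans (normalizer_le_normalizer_OZ p _)
  have hNC : normalizer (E : Set G) ≤ normalizer ((OZ p (pCoreOf p E) ⊓ centralizer (E : Set G) : Subgroup G) : Set G) :=
    le_normalizer_inf hNO (le_normalizer_centralizer le_rfl)
  intro f hf
  obtain ⟨e, he, hef⟩ := sl_perfect tE.gt s hFE (hFE.trans hNO) (hFE.trans hNC) hperf hf
  have h1 : e⁻¹ * f ∈ centralizer (WE p E : Set G) := by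
    apply hkE.bar (mul_mem (inv_mem (le_normalizer he)) (hFE hf))
    intro w hw
    exact (hef w (hkE.nb.WE_le_OZ hw)).2
  have e1 : f = e * (e⁻¹ * f) := by group
  rw [e1]
  exact mul_mem ((le_sup_left : E ≤ E ⊔ centralizer (WE p E : Set G)) he)
    ((le_sup_right : centralizer (WE p E : Set G) ≤ E ⊔ centralizer (WE p E : Set G)) h1)

end Cfsg.Agent.Lib.BN
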