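import Cfsg.Agent.Lib.BBPair13
import Cfsg.Agent.Lib.H56BauO
import Mathlib.GroupTheory.SpecificGroups.Alternating

set_option autoImplicit false
set_option linter.unusedSectionVars false

/-! S2987, piece P1 (helper81): in a block of alternating type the centre of the module is trivial. -/

namespace Cfsg.Agent.Lib.BN.P1

open Equiv Equiv.Perm Finset

/-- abstract splitting lemma: an extension of the even-weight module (odd degree) by a trivial module
on which no nontrivial coinvariant homomorphism exists. -/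
theorem abs_split {A : Type*} [CommGroup A] {E : Type*} [Group E] (c : E →* MulAut A) {n : ℕ} (hn : 5 ≤ n)
    (hexp : ∀ x : A, x ^ 2 = 1) (ho : Odd n)
    (ρ : E →* Equiv.Perm (Fin n)) (hρ : ρ.range = alternatingGroup (Fin n)) (hker : ∀ e, ρ e = 1 → c e = 1)
    (ψ : A →* Multiplicative (Fin n → ZMod 2)) (hsum : ∀ u, ∑ i, Multiplicative.toAdd (ψ u) i = 0)
    (hsurj : ∀ v : Fin n → ZMod 2, ∑ i, v i = 0 → ∃ u, Multiplicative.toAdd (ψ u) = v)
    (hfix : ∀ u, ψ u = 1 → ∀ e, c e u = u)
    (hequiv : ∀ e u i, Multiplicative.toAdd (ψ (c e u)) i = Multiplicative.toAdd (ψ u) ((ρ e)⁻¹ i))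
    (hcomm : ∀ κ : A →* A, (∀ e x, κ (c e x) = κ x) → ∀ x, κ x = 1) :
    ∀ u, ψ u = 1 → u = 1 := by
  classical
  have hn0 : 0 < n := by omega
  set L : Fin n := ⟨0, hn0⟩ with hL
  -- the vectors `w i`
  let w : Fin n → Fin n → ZMod 2 := fun i j => if j = i then 0 else 1
  have hw : ∀ i, ∑ j, w i j = 0 := by
    intro i
    have h1 : ∑ j, w i j = ∑ j, ((1 : ZMod 2) - if j = i then 1 else 0) := by
      apply Finset.sum_congr rfl
      intro j _
      simp only [w]
      split_ifs <;> simp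
    rw [h1, Finset.sum_sub_distrib, Finset.sum_ite_eq']
    simp only [Finset.sum_const, Finset.card_univ, Fintype.card_fin, Finset.mem_univ, if_true, nsmul_eq_mul, mul_one]
    obtain ⟨k, hk⟩ := ho
    rw [hk]
    push_cast
    have : (2 : ZMod 2) = 0 := rfl
    rw [this]
    simp
  obtain ⟨v, hv⟩ := hsurj (w L) (hw L)
  -- z is trivial
  have hz1 : ∀ e, ρ e L = L → ψ (v⁻¹ * c e v) = 1 := by
    intro e he
    rw [map_mul, map_inv, inv_mul_eq_one]
    apply Multiplicative.toAdd.injective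
    funext i
    rw [hequiv, hv]
    simp only [w]
    have : ((ρ e)⁻¹ i = L) ↔ i = L := by
      rw [Equiv.Perm.inv_eq_iff_eq, he]
    simp only [this]
  have hmul : ∀ e f, ρ e L = L → ρ f L = L → v⁻¹ * c (e * f) v = (v⁻¹ * c e v) * (v⁻¹ * c f v) := by
    intro e f he hf
    have h1 : c e (v⁻¹ * c f v) = v⁻¹ * c f v := hfix _ (hz1 f hf) e
    rw [map_mul, MulAut.mul_apply]
    have h2 : c f v = v * (v⁻¹ * c f v) := by group
    conv_lhs => rw [h2, map_mul, h1]
    simp only [mul_assoc]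
  have hstab0 : ∀ e f, ρ e = ρ f → c e = c f := by
    intro e f h
    have h1 : c (f⁻¹ * e) = 1 := hker _ (by rw [map_mul, map_inv, h, inv_mul_cancel])
    rw [map_mul, map_inv, inv_mul_eq_one] at h1
    exact h1.symm
  have hstab1 : ∀ e, ρ e L = L → (ρ e) ^ 3 = 1 → c e v = v := by
    intro e he h3
    have e2 : ρ (e * e) L = L := by rw [map_mul, Equiv.Perm.mul_apply, he, he]
    have h1 := hmul e e he he
    have h2 := hmul (e * e) e e2 he
    have h4 : c (e * e * e) = 1 := by
      apply hker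
      rw [map_mul, map_mul]
      rw [pow_succ, pow_two] at h3
      exact h3
    rw [h4, h1] at h2
    set a := v⁻¹ * c e v with ha
    have h5 : a ^ 2 = 1 := hexp a
    have h6 : v⁻¹ * (1 : MulAut A) v = 1 := by rw [MulAut.one_apply, inv_mul_cancel]
    rw [h6, ← pow_two, h5, one_mul] at h2
    exact (inv_mul_eq_one.mp h2.symm).symm
  have hlift : ∀ σ : Equiv.Perm (Fin n), Equiv.Perm.sign σ = 1 → ∃ e, ρ e = σ := by
    intro σ hσ
    have : σ ∈ ρ.range := by rw [hρ]; exact hσ
    exact this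
  have hfixL : ∀ τ : Equiv.Perm {i : Fin n // i ≠ L}, Equiv.Perm.ofSubtype τ L = L := by
    intro τ
    exact Equiv.Perm.ofSubtype_apply_of_not_mem τ (by simp)
  have hstab2 : ∀ τ : Equiv.Perm {i : Fin n // i ≠ L}, τ ∈ alternatingGroup {i : Fin n // i ≠ L} →
      Equiv.Perm.sign τ = 1 ∧ ∀ e, ρ e = Equiv.Perm.ofSubtype τ → c e v = v := by
    intro τ hτ
    rw [← Equiv.Perm.closure_three_cycles_eq_alternating] at hτ
    induction hτ using Subgroup.closure_induction with
    | mem x hx =>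
      refine ⟨Equiv.Perm.IsThreeCycle.sign hx, ?_⟩
      intro e he
      apply hstab1 e (by rw [he]; exact hfixL x)
      rw [he, ← map_pow]
      have h3 : x ^ 3 = 1 := by
        rw [← Equiv.Perm.IsThreeCycle.orderOf hx]; exact pow_orderOf_eq_one x
      rw [h3, map_one]
    | one =>
      refine ⟨map_one _, ?_⟩
      intro e he
      rw [map_one] at he
      rw [hker e he, MulAut.one_apply]
    | mul x y hx hy ihx ihy =>
      obtain ⟨sx, ix⟩ := ihx
      obtain ⟨sy, iy⟩ := ihy
      refine ⟨by rw [map_mul, sx, sy, one_mul], ?_⟩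
      intro e he
      obtain ⟨ex, hex⟩ := hlift (Equiv.Perm.ofSubtype x) (by rw [Equiv.Perm.sign_ofSubtype]; exact sx)
      obtain ⟨ey, hey⟩ := hlift (Equiv.Perm.ofSubtype y) (by rw [Equiv.Perm.sign_ofSubtype]; exact sy)
      rw [hstab0 e (ex * ey) (by rw [he, map_mul, map_mul, hex, hey]), map_mul, MulAut.mul_apply, iy ey hey, ix ex hex]
    | inv x hx ih =>
      obtain ⟨sx, ix⟩ := ih
      refine ⟨by rw [map_inv, sx, inv_one], ?_⟩
      intro e he
      obtain ⟨ex, hex⟩ := hlift (Equiv.Perm.ofSubtype x) (by rw [Equiv.Perm.sign_ofSubtype]; exact sx)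
      rw [hstab0 e (ex⁻¹) (by rw [he, map_inv, map_inv, hex]), map_inv, MulAut.inv_apply, MulEquiv.symm_apply_eq]
      exact (ix ex hex).symm
  have hstab : ∀ e, ρ e L = L → c e v = v := by
    intro e he
    have hp : ∀ x : Fin n, x ≠ L ↔ ρ e x ≠ L := by
      intro x
      constructor
      · intro h h'
        exact h ((ρ e).injective (h'.trans he.symm))
      · rintro h rfl
        exact h he
    have hs : Equiv.Perm.sign (ρ e) = 1 := by
      have : ρ e ∈ ρ.range := ⟨e, rfl⟩
      rw [hρ] at this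
      exact this
    have h1 : Equiv.Perm.ofSubtype ((ρ e).subtypePerm (p := fun x => x ≠ L) (fun x => (hp x).symm)) = ρ e := by
      apply Equiv.Perm.ofSubtype_subtypePerm
      intro x hx hxL
      exact hx (by rw [hxL, he])
    refine (hstab2 ((ρ e).subtypePerm (p := fun x => x ≠ L) (fun x => (hp x).symm)) ?_).2 e h1.symm
    change Equiv.Perm.sign _ = 1
    rw [← Equiv.Perm.sign_ofSubtype, h1, hs]
  -- transitivity
  have htr : ∀ i : Fin n, ∃ e, ρ e L = i := by
    intro i
    by_cases hi : i = L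
    · exact ⟨1, by rw [map_one, hi]; rfl⟩
    · have h3 : ∃ k : Fin n, k ∉ ({i, L} : Finset (Fin n)) := by
        by_contra hcon
        push Not at hcon
        have h4 : (Finset.univ : Finset (Fin n)) ⊆ {i, L} := fun k _ => hcon k
        have h5 := Finset.card_le_card h4
        have h6 : ({i, L} : Finset (Fin n)).card ≤ 2 := Finset.card_le_two
        rw [Finset.card_univ, Fintype.card_fin] at h5
        omega
      obtain ⟨k, hk⟩ := h3
      simp only [Finset.mem_insert, Finset.mem_singleton, not_or] at hk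
      obtain ⟨e, he⟩ := hlift (Equiv.swap L k * Equiv.swap L i) (by
        rw [map_mul, Equiv.Perm.sign_swap (Ne.symm hk.2), Equiv.Perm.sign_swap (Ne.symm hi)]; decide)
      refine ⟨e, ?_⟩
      rw [he, Equiv.Perm.mul_apply, Equiv.swap_apply_left, Equiv.swap_apply_of_ne_of_ne hi (Ne.symm hk.1)]
  choose g hg using htr
  let t : Fin n → A := fun i => c (g i) v
  have ht : ∀ e i, c e (t i) = t (ρ e i) := by
    intro e i
    have h1 : c ((g (ρ e i))⁻¹ * (e * g i)) v = v := by
      apply hstab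
      rw [map_mul, map_mul, map_inv, Equiv.Perm.mul_apply, Equiv.Perm.mul_apply, hg, Equiv.Perm.inv_eq_iff_eq, hg]
    have h2 : c (e * g i) v = c (g (ρ e i)) v := by
      have h3 : e * g i = g (ρ e i) * ((g (ρ e i))⁻¹ * (e * g i)) := by group
      rw [h3, map_mul, MulAut.mul_apply, h1]
    show c e (c (g i) v) = c (g (ρ e i)) v
    rw [← h2, map_mul, MulAut.mul_apply]
  have htψ : ∀ i, Multiplicative.toAdd (ψ (t i)) = w i := by
    intro i
    funext j
    show Multiplicative.toAdd (ψ (c (g i) v)) j = _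
    rw [hequiv, hv]
    simp only [w]
    have : ((ρ (g i))⁻¹ j = L) ↔ j = i := by
      rw [Equiv.Perm.inv_eq_iff_eq, hg]
    simp only [this]
  -- the section
  have hpow : ∀ (a : A) (x y : ZMod 2), a ^ (x + y).val = a ^ x.val * a ^ y.val := by
    intro a x y
    have ha := hexp a
    have hcase : ∀ x y : ZMod 2, (x + y).val = (x.val + y.val) % 2 := ZMod.val_add
    rw [hcase, ← pow_add]
    conv_rhs => rw [← Nat.mod_add_div (x.val + y.val) 2, pow_add, pow_mul, ha, one_pow, mul_one]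
  let σ : A →* A :=
    { toFun := fun x => ∏ i, t i ^ (Multiplicative.toAdd (ψ x) i).val
      map_one' := by simp
      map_mul' := by
        intro x y
        rw [← Finset.prod_mul_distrib]
        apply Finset.prod_congr rfl
        intro i _
        rw [map_mul, toAdd_mul, Pi.add_apply, hpow] }
  have hσ : ∀ x, σ x = ∏ i, t i ^ (Multiplicative.toAdd (ψ x) i).val := fun x => rfl
  have hσψ : ∀ x, ψ (σ x) = ψ x := by
    intro x
    apply Multiplicative.toAdd.injective
    funext j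
    rw [hσ, map_prod, toAdd_prod, Finset.sum_apply]
    have h1 : ∀ i, Multiplicative.toAdd (ψ (t i ^ (Multiplicative.toAdd (ψ x) i).val)) j =
        Multiplicative.toAdd (ψ x) i - if i = j then Multiplicative.toAdd (ψ x) i else 0 := by
      intro i
      rw [map_pow, toAdd_pow, Pi.smul_apply, htψ]
      simp only [w, nsmul_eq_mul, ZMod.natCast_val, ZMod.cast_id', id_eq]
      by_cases hij : i = j
      · subst hij; simp
      · have : ¬ j = i := fun h => hij h.symm
        simp [hij, this]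
    rw [Finset.sum_congr rfl (fun i _ => h1 i), Finset.sum_sub_distrib, hsum, Finset.sum_ite_eq' Finset.univ j]
    simp only [Finset.mem_univ, if_true, zero_sub]
    exact ZMod.neg_eq_self_mod_two _
  have hσe : ∀ e x, σ (c e x) = c e (σ x) := by
    intro e x
    rw [hσ, hσ, map_prod]
    rw [← Equiv.prod_comp (ρ e)]
    apply Finset.prod_congr rfl
    intro i _
    rw [hequiv, map_pow, ht, Equiv.Perm.inv_def, Equiv.symm_apply_apply]
  have hκ := hcomm
    { toFun := fun x => x⁻¹ * σ x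
      map_one' := by simp
      map_mul' := by
        intro x y
        rw [map_mul, mul_inv, mul_mul_mul_comm] } (by
      intro e x
      show (c e x)⁻¹ * σ (c e x) = x⁻¹ * σ x
      rw [hσe, ← map_inv, ← map_mul]
      apply hfix
      rw [map_mul, map_inv, hσψ, inv_mul_cancel])
  intro u hu
  have h1 : u⁻¹ * σ u = 1 := hκ u
  have h2 : σ u = 1 := by
    rw [hσ, hu]
    simp
  rw [h2, mul_one, inv_eq_one] at h1
  exact h1

end Cfsg.Agent.Lib.BN.P1

namespace Cfsg.Agent.Lib.BN

open Subgroup Cfsg Cfsg.Agent.Lib.LocBase Cfsg.Agent.Lib.PReduced Cfsg.Agent.Lib.BBlock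
open scoped commutatorElement Matrix

universe u
variable {G : Type u} [Group G] [Finite G] {p : ℕ} [hp : Fact p.Prime]

theorem p1_ker {n : ℕ} (hn : 3 ≤ n) (s : Equiv.Perm (Fin n))
    (h : ∀ v : Fin n → ZMod 2, ∑ i, v i = 0 → ∀ i, v i = v (s i)) : s = 1 := by
  classical
  ext1 j
  rw [Equiv.Perm.one_apply]
  by_contra hne
  have h3 : ∃ k : Fin n, k ∉ ({j, s j} : Finset (Fin n)) := by
    by_contra hcon
    push Not at hcon
    have h4 : (Finset.univ : Finset (Fin n)) ⊆ {j, s j} := fun k _ => hcon k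
    have h5 := Finset.card_le_card h4
    have h6 : ({j, s j} : Finset (Fin n)).card ≤ 2 := Finset.card_le_two
    rw [Finset.card_univ, Fintype.card_fin] at h5
    omega
  obtain ⟨k, hk⟩ := h3
  simp only [Finset.mem_insert, Finset.mem_singleton, not_or] at hk
  have h7 := h (fun i => (if i = j then 1 else 0) + (if i = k then 1 else 0)) (by
    rw [Finset.sum_add_distrib, Finset.sum_ite_eq', Finset.sum_ite_eq']
    simp only [Finset.mem_univ, if_true]
    decide) j
  simp only [if_true, hne, if_false, Ne.symm hk.1, Ne.symm hk.2, add_zero] at h7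
  exact one_ne_zero h7

theorem p1_card {E : Subgroup G} {m : ℕ} (hm : 2 ≤ m) (hQ : pCoreOf 2 E = OZ 2 (pCoreOf 2 E))
    (hiso : Nonempty (↥E ⧸ pCore 2 ↥E ≃* ↥(alternatingGroup (Fin (2 * m + 1)))))
    (ρ : ↥E →* Equiv.Perm (Fin (2 * m + 1))) (hρ : ρ.range = alternatingGroup (Fin (2 * m + 1)))
    (hQk : pCore 2 ↥E ≤ ρ.ker) : ρ.ker = pCore 2 ↥E := by
  symm
  apply Subgroup.eq_of_le_of_card_ge hQk
  obtain ⟨f⟩ := hiso
  have h1 := Subgroup.card_mul_index ρ.ker
  have h2 := Subgroup.card_mul_index (pCore 2 ↥E)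
  have h3 : ρ.ker.index = (pCore 2 ↥E).index := by
    rw [Subgroup.index_ker, hρ, Subgroup.index_eq_card]
    exact (Nat.card_congr f.toEquiv).symm
  rw [h3, ← h2] at h1
  have h4 : 0 < (pCore 2 ↥E).index := Nat.pos_of_ne_zero Subgroup.index_ne_zero_of_finite
  exact (Nat.eq_of_mul_eq_mul_right h4 h1).le

theorem alt_Z {E : Subgroup G} {m : ℕ} (hm : 2 ≤ m) (hQ : pCoreOf 2 E = OZ 2 (pCoreOf 2 E))
    (hqe : ⁅pCoreOf 2 E, E⁆ = pCoreOf 2 E)
    (hiso : Nonempty (↥E ⧸ pCore 2 ↥E ≃* ↥(alternatingGroup (Fin (2 * m + 1)))))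
    (hact : ActsAsOddPermModuleOnSection (2 * m + 1) (alternatingGroup (Fin (2 * m + 1))) E
      (OZ 2 (pCoreOf 2 E)) (OZ 2 (pCoreOf 2 E) ⊓ centralizer (E : Set G))) :
    pCoreOf 2 E ⊓ centralizer (E : Set G) = ⊥ ∧ 2 < Nat.card ↥(pCoreOf 2 E) := by
  classical
  have hel : ∀ x ∈ pCoreOf 2 E, x ∈ centralizer (pCoreOf 2 E : Set G) ∧ x ^ 2 = 1 := by
    intro x hx
    have h1 : x ∈ OZ 2 (pCoreOf 2 E) := hQ ▸ hx
    exact (mem_OZ.mp h1).2
  rw [← hQ] at hact
  obtain ⟨hEQ, -, ρ, ψ, hρ, hsum, hsurj, hker, heq⟩ := hact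
  have hcomm : ∀ x ∈ pCoreOf 2 E, ∀ y ∈ pCoreOf 2 E, x * y = y * x := by
    intro x hx y hy
    exact (mem_centralizer_iff.mp (hel y hy).1 x hx)
  have hQk : pCore 2 ↥E ≤ ρ.ker := by
    intro q hq
    have hq' : (q : G) ∈ pCoreOf 2 E := ⟨q, hq, rfl⟩
    rw [MonoidHom.mem_ker]
    have h1 : (ρ q)⁻¹ = 1 := by
      apply p1_ker (by omega)
      intro v hv i
      obtain ⟨u, rfl⟩ := hsurj v hv
      obtain ⟨w, hw, hwi⟩ := heq q u
      have : w = u := by
        apply Subtype.ext
        rw [hw, hcomm _ hq' _ u.2, mul_assoc, mul_inv_cancel, mul_one]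
      rw [← hwi i, this]
    exact inv_eq_one.mp h1
  have hk := p1_card hm hQ hiso ρ hρ hQk
  letI inst : CommGroup ↥(pCoreOf 2 E) :=
    { (inferInstance : Group ↥(pCoreOf 2 E)) with
      mul_comm := fun x y => Subtype.ext (hcomm x x.2 y y.2) }
  let c : ↥E →* MulAut ↥(pCoreOf 2 E) :=
    (Subgroup.normalizerMonoidHom (pCoreOf 2 E)).comp (Subgroup.inclusion hEQ)
  have hc : ∀ (e : ↥E) (u : ↥(pCoreOf 2 E)), ((c e u : ↥(pCoreOf 2 E)) : G) = e * u * (e : G)⁻¹ := fun e u => rfl
  have hmain := P1.abs_split c (n := 2 * m + 1) (by omega) (fun x => Subtype.ext (hel x x.2).2) ⟨m, rfl⟩ ρ hρ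
    (by
      intro e he
      have h1 : e ∈ pCore 2 ↥E := by rw [← hk]; exact he
      have h2 : (e : G) ∈ pCoreOf 2 E := ⟨e, h1, rfl⟩
      ext u
      rw [hc, MulAut.one_apply, hcomm _ h2 _ u.2, mul_assoc, mul_inv_cancel, mul_one])
    ψ hsum hsurj
    (by
      intro u hu e
      have h1 := (mem_inf.mp ((hker u).mp hu)).2
      apply Subtype.ext
      rw [hc, mem_centralizer_iff.mp h1 e e.2, mul_assoc, mul_inv_cancel, mul_one])
    (by
      intro e u i
      obtain ⟨w, hw, hwi⟩ := heq e u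
      have : c e u = w := Subtype.ext (by rw [hc, hw])
      rw [this, hwi])
    (by
      intro κ hκ x
      have h1 : ⁅pCoreOf 2 E, E⁆ ≤ κ.ker.map (pCoreOf 2 E).subtype := by
        rw [commutator_le]
        intro a ha e he
        have h2 : a * (e * a⁻¹ * e⁻¹) = ⁅a, e⁆ := by rw [commutatorElement_def]; group
        refine ⟨⟨a, ha⟩ * c ⟨e, he⟩ ⟨a, ha⟩⁻¹, ?_, ?_⟩
        · change κ _ = 1
          rw [map_mul, hκ, map_inv, mul_inv_cancel]
        · rw [← h2]; rfl
      rw [hqe] at h1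
      obtain ⟨y, hy, hyx⟩ := h1 x.2
      have : y = x := Subtype.ext hyx
      rw [← this]; exact hy)
  constructor
  · rw [eq_bot_iff]
    intro x hx
    have h1 : ψ ⟨x, (mem_inf.mp hx).1⟩ = 1 := (hker _).mpr hx
    have h2 := hmain _ h1
    exact mem_bot.mpr (congrArg Subtype.val h2)
  · -- three elements
    let i0 : Fin (2 * m + 1) := ⟨0, by omega⟩
    let i1 : Fin (2 * m + 1) := ⟨1, by omega⟩
    let i2 : Fin (2 * m + 1) := ⟨2, by omega⟩
    have h01 : i0 ≠ i1 := by simp [i0, i1]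
    have h02 : i0 ≠ i2 := by simp [i0, i2]
    have h12 : i1 ≠ i2 := by simp [i1, i2]
    have hs : ∀ j k : Fin (2 * m + 1),
        ∑ i, ((if i = j then (1 : ZMod 2) else 0) + (if i = k then 1 else 0)) = 0 := by
      intro j k
      rw [Finset.sum_add_distrib, Finset.sum_ite_eq', Finset.sum_ite_eq']
      simp only [Finset.mem_univ, if_true]
      decide
    obtain ⟨u1, hu1⟩ := hsurj _ (hs i0 i1)
    obtain ⟨u2, hu2⟩ := hsurj _ (hs i0 i2)
    have n1 : (1 : ↥(pCoreOf 2 E)) ≠ u1 := by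
      rintro rfl
      rw [map_one] at hu1
      have := congrFun hu1 i0
      simp [h01] at this
    have n2 : (1 : ↥(pCoreOf 2 E)) ≠ u2 := by
      rintro rfl
      rw [map_one] at hu2
      have := congrFun hu2 i0
      simp [h02] at this
    have n3 : u1 ≠ u2 := by
      rintro rfl
      rw [hu1] at hu2
      have := congrFun hu2 i1
      simp [h12, h01.symm] at this
    haveI := Fintype.ofFinite ↥(pCoreOf 2 E)
    rw [Nat.card_eq_fintype_card]
    have h3 : ({1, u1, u2} : Finset ↥(pCoreOf 2 E)).card = 3 :=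
      Finset.card_eq_three.mpr ⟨1, u1, u2, n1, n2, n3, rfl⟩
    have h4 := Finset.card_le_univ ({1, u1, u2} : Finset ↥(pCoreOf 2 E))
    omega

end Cfsg.Agent.Lib.BN
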