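import Mathlib

/-!
# S2987, piece P4: the abstract argument (helper84)
-/

set_option autoImplicit false
set_option linter.unusedSectionVars false

namespace Cfsg.Agent.Lib.BN.P4

open Subgroup

/-- `N ≤ choose N k` for `1 ≤ k ≤ N - 1` -/
theorem le_choose (N : ℕ) : ∀ k, 1 ≤ k → k + 1 ≤ N → N ≤ N.choose k := by
  induction N with
  | zero => intro k _ h; omega
  | succ N ih =>
    intro k hk hkN
    obtain ⟨j, rfl⟩ : ∃ j, k = j + 1 := ⟨k - 1, by omega⟩
    rw [Nat.choose_succ_succ']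
    by_cases h0 : j = 0
    · subst h0; simp
    · by_cases h1 : j + 1 = N
      · subst h1
        rw [Nat.choose_self, Nat.choose_succ_self_right]
      · have h2 := ih (j + 1) (by omega) (by omega)
        have h3 : 0 < N.choose j := Nat.choose_pos (by omega)
        omega

theorem lt_choose {n j : ℕ} (h1 : 2 ≤ j) (h2 : j + 2 ≤ n) : n < n.choose j := by
  obtain ⟨N, rfl⟩ : ∃ N, n = N + 1 := ⟨n - 1, by omega⟩
  obtain ⟨k, rfl⟩ : ∃ k, j = k + 1 := ⟨j - 1, by omega⟩
  have h3 := Nat.add_one_mul_choose_eq N k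
  have h4 := le_choose N k (by omega) (by omega)
  by_contra hcon
  push Not at hcon
  have h5 : (N + 1) * N ≤ (N + 1) * (k + 1) := by
    calc (N + 1) * N ≤ (N + 1) * N.choose k := Nat.mul_le_mul_left _ h4
      _ = (N + 1).choose (k + 1) * (k + 1) := h3
      _ ≤ (N + 1) * (k + 1) := Nat.mul_le_mul_right _ hcon
  have h6 := Nat.le_of_mul_le_mul_left h5 (by omega)
  omega

section perm

variable {n : ℕ}

theorem exists_alt (hn : 3 ≤ n) {S S' : Finset (Fin n)} (h : S.card = S'.card) :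
    ∃ r ∈ alternatingGroup (Fin n), ∀ i, r i ∈ S' ↔ i ∈ S := by
  classical
  obtain ⟨e⟩ : Nonempty ({i // i ∈ S} ≃ {i // i ∈ S'}) := ⟨Finset.equivOfCardEq h⟩
  set r := e.extendSubtype with hr
  have hr1 : ∀ i, r i ∈ S' ↔ i ∈ S := by
    intro i
    constructor
    · intro h1
      by_contra h2
      exact e.extendSubtype_not_mem i h2 h1
    · intro h1
      exact e.extendSubtype_mem i h1
  by_cases hs : Equiv.Perm.sign r = 1
  · exact ⟨r, Equiv.Perm.mem_alternatingGroup.mpr hs, hr1⟩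
  · have hs' : Equiv.Perm.sign r = -1 := (Int.units_eq_one_or _).resolve_left hs
    obtain ⟨a, b, hab, hS⟩ : ∃ a b : Fin n, a ≠ b ∧ (a ∈ S ↔ b ∈ S) := by
      by_contra hcon
      push Not at hcon
      have h0 := hcon ⟨0, by omega⟩ ⟨1, by omega⟩ (by simp)
      have h1 := hcon ⟨0, by omega⟩ ⟨2, by omega⟩ (by simp)
      have h2 := hcon ⟨1, by omega⟩ ⟨2, by omega⟩ (by simp)
      tauto
    refine ⟨r * Equiv.swap a b, ?_, ?_⟩
    · rw [Equiv.Perm.mem_alternatingGroup, map_mul, hs', Equiv.Perm.sign_swap hab]; rfl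
    · intro i
      rw [Equiv.Perm.mul_apply, hr1]
      by_cases hia : i = a
      · rw [hia, Equiv.swap_apply_left]; exact hS.symm
      · by_cases hib : i = b
        · rw [hib, Equiv.swap_apply_right]; exact hS
        · rw [Equiv.swap_apply_of_ne_of_ne hia hib]

/-- indicator vector -/
def ind (S : Finset (Fin n)) : Fin n → ZMod 2 := fun i => if i ∈ S then 1 else 0

theorem ind_inj {S S' : Finset (Fin n)} (h : ind S = ind S') : S = S' := by
  ext i
  have h1 := congrFun h i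
  unfold ind at h1
  by_cases h2 : i ∈ S <;> by_cases h3 : i ∈ S' <;> simp_all

theorem exists_ind (v : Fin n → ZMod 2) : ∃ S : Finset (Fin n), v = ind S := by
  classical
  refine ⟨Finset.univ.filter (fun i => v i = 1), ?_⟩
  ext i
  unfold ind
  simp only [Finset.mem_filter, Finset.mem_univ, true_and]
  have h2 : ∀ z : ZMod 2, z = if z = 1 then 1 else 0 := by decide
  rw [← h2 (v i)]

theorem sum_ind (S : Finset (Fin n)) : ∑ i, ind S i = (S.card : ZMod 2) := by
  unfold ind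
  rw [Finset.sum_ite_mem, Finset.univ_inter, Finset.sum_const, nsmul_eq_mul, mul_one]

theorem sum_ind_eq {S : Finset (Fin n)} : ∑ i, ind S i = 0 ↔ Even S.card := by
  rw [sum_ind, ZMod.natCast_eq_zero_iff, even_iff_two_dvd]

theorem ind_comp (S : Finset (Fin n)) (r : Equiv.Perm (Fin n)) :
    (fun i => ind S (r⁻¹ i)) = ind (S.map r.toEmbedding) := by
  ext i
  unfold ind
  simp only [Finset.mem_map_equiv]
  rfl

end perm

variable {G : Type*} [Group G] [Finite G]

/-- the data of the even weight module -/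
structure Ev (m : ℕ) (E W : Subgroup G) (ψ : G → (Fin (2 * m + 1) → ZMod 2)) : Prop where
  hm : 2 ≤ m
  mul : ∀ u ∈ W, ∀ v ∈ W, ψ (u * v) = ψ u + ψ v
  inj : ∀ u ∈ W, ∀ v ∈ W, ψ u = ψ v → u = v
  even : ∀ u ∈ W, ∑ i, ψ u i = 0
  surj : ∀ v : Fin (2 * m + 1) → ZMod 2, ∑ i, v i = 0 → ∃ u ∈ W, ψ u = v
  nor : E ≤ normalizer (W : Set G)
  F1 : ∀ e ∈ E, ∃ r ∈ alternatingGroup (Fin (2 * m + 1)), ∀ u ∈ W, ∀ i, ψ (e * u * e⁻¹) i = ψ u (r⁻¹ i)
  F2 : ∀ r ∈ alternatingGroup (Fin (2 * m + 1)), ∃ e ∈ E, ∀ u ∈ W, ∀ i, ψ (e * u * e⁻¹) i = ψ u (r⁻¹ i)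

/-- the `E`-orbit -/
def Orb (E : Subgroup G) (w : G) : Set G := {y | ∃ e ∈ E, y = e * w * e⁻¹}

theorem orb_conj {E : Subgroup G} {x : G} (hx : x ∈ normalizer (E : Set G)) (w : G) :
    (Orb E (x * w * x⁻¹)).ncard = (Orb E w).ncard := by
  have h1 : Orb E (x * w * x⁻¹) = (MulAut.conj x) '' Orb E w := by
    ext y
    constructor
    · rintro ⟨e, he, rfl⟩
      refine ⟨(x⁻¹ * e * x) * w * (x⁻¹ * e * x)⁻¹, ⟨x⁻¹ * e * x, ?_, rfl⟩, ?_⟩
      · exact (mem_normalizer_iff''.mp hx e).mp he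
      · rw [MulAut.conj_apply]; group
    · rintro ⟨_, ⟨e, he, rfl⟩, rfl⟩
      refine ⟨x * e * x⁻¹, (mem_normalizer_iff.mp hx e).mp he, ?_⟩
      rw [MulAut.conj_apply]; group
  rw [h1, Set.ncard_image_of_injective _ (MulEquiv.injective _)]

namespace Ev

variable {m : ℕ} {E W : Subgroup G} {ψ : G → (Fin (2 * m + 1) → ZMod 2)} (d : Ev m E W ψ)
include d

theorem ncard_orb {w : G} (hw : w ∈ W) {S : Finset (Fin (2 * m + 1))} (hS : ψ w = ind S) :
    (Orb E w).ncard = (2 * m + 1).choose S.card := by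
  classical
  have hm := d.hm
  have h1 : ψ '' Orb E w = (fun T : Finset (Fin (2 * m + 1)) => ind T) '' {T | T.card = S.card} := by
    ext v
    constructor
    · rintro ⟨_, ⟨e, he, rfl⟩, rfl⟩
      obtain ⟨r, -, hr⟩ := d.F1 e he
      refine ⟨S.map r.toEmbedding, ?_, ?_⟩
      · simp
      · change ind _ = _
        rw [← ind_comp, ← hS]
        ext i
        rw [hr w hw]
    · rintro ⟨T, hT, rfl⟩
      obtain ⟨r, hr, hr2⟩ := exists_alt (n := 2 * m + 1) (by omega) (S := S) (S' := T) hT.symm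
      obtain ⟨e, he, he2⟩ := d.F2 r hr
      refine ⟨_, ⟨e, he, rfl⟩, ?_⟩
      ext i
      rw [he2 w hw, hS]
      unfold ind
      have := hr2 (r⁻¹ i)
      have hri : r (r⁻¹ i) = i := r.apply_symm_apply i
      rw [hri] at this
      simp only [this]
  have h2 : (ψ '' Orb E w).ncard = (Orb E w).ncard := by
    apply Set.InjOn.ncard_image
    rintro _ ⟨e, he, rfl⟩ _ ⟨f, hf, rfl⟩ h
    exact d.inj _ ((mem_normalizer_iff.mp (d.nor he) _).mp hw) _ ((mem_normalizer_iff.mp (d.nor hf) _).mp hw) h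
  rw [← h2, h1, Set.ncard_image_of_injective _ (fun _ _ h => ind_inj h)]
  have h3 : {T : Finset (Fin (2 * m + 1)) | T.card = S.card} = ((Finset.powersetCard S.card Finset.univ : Finset (Finset (Fin (2 * m + 1)))) : Set _) := by
    ext T; simp [Finset.mem_powersetCard]
  rw [h3, Set.ncard_coe_finset, Finset.card_powersetCard, Finset.card_univ, Fintype.card_fin]

theorem ψ_one : ψ 1 = 0 := by
  have := d.mul 1 W.one_mem 1 W.one_mem
  rw [mul_one] at this
  exact left_eq_add.mp this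

/-- the vectors of weight `n - 1` are recognized by their orbit length -/
theorem orb_iff {w : G} (hw : w ∈ W) : (Orb E w).ncard = 2 * m + 1 ↔ ∃ i, ψ w = ind {i}ᶜ := by
  have hm := d.hm
  obtain ⟨S, hS⟩ := exists_ind (ψ w)
  rw [d.ncard_orb hw hS]
  have hev : Even S.card := by
    rw [← sum_ind_eq, ← hS]; exact d.even w hw
  have hle : S.card ≤ 2 * m + 1 := by
    have := Finset.card_le_univ S
    rwa [Fintype.card_fin] at this
  constructor
  · intro h
    have h1 : S.card = 2 * m := by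
      obtain ⟨k, hk⟩ := hev
      by_contra hne
      by_cases h0 : S.card = 0
      · rw [h0, Nat.choose_zero_right] at h; omega
      · have := lt_choose (n := 2 * m + 1) (j := S.card) (by omega) (by omega)
        omega
    have h2 : Sᶜ.card = 1 := by
      rw [Finset.card_compl, Fintype.card_fin, h1]; omega
    obtain ⟨i, hi⟩ := Finset.card_eq_one.mp h2
    refine ⟨i, ?_⟩
    rw [hS, ← hi, compl_compl]
  · rintro ⟨i, hi⟩
    have h1 : S = {i}ᶜ := ind_inj (by rw [← hS, hi])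
    have h2 : S.card = 2 * m := by
      rw [h1, Finset.card_compl, Fintype.card_fin, Finset.card_singleton]; omega
    rw [h2, Nat.choose_succ_self_right]

theorem main {x : G} (hxE : x ∈ normalizer (E : Set G)) (hxW : x ∈ normalizer (W : Set G)) (ho : Odd (orderOf x)) :
    ∃ e ∈ E, e⁻¹ * x ∈ centralizer (W : Set G) := by
  classical
  have hm := d.hm
  have hcW : ∀ u ∈ W, x * u * x⁻¹ ∈ W := fun u hu => (mem_normalizer_iff.mp hxW _).mp hu
  have hevi : ∀ i : Fin (2 * m + 1), ∑ j, ind ({i}ᶜ : Finset (Fin (2 * m + 1))) j = 0 := by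
    intro i
    rw [sum_ind_eq, Finset.card_compl, Fintype.card_fin, Finset.card_singleton]
    exact ⟨m, by omega⟩
  choose w hwW hw using fun i => d.surj _ (hevi i)
  have hπ : ∀ i, ∃ j, ψ (x * w i * x⁻¹) = ind {j}ᶜ := by
    intro i
    rw [← d.orb_iff (hcW _ (hwW i)), orb_conj hxE, d.orb_iff (hwW i)]
    exact ⟨i, hw i⟩
  choose f hf using hπ
  have hsing : ∀ i j : Fin (2 * m + 1), ind ({i}ᶜ : Finset (Fin (2 * m + 1))) = ind {j}ᶜ → i = j := by
    intro i j h
    have h1 := ind_inj h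
    rw [compl_inj_iff] at h1
    exact Finset.singleton_injective h1
  have hfinj : Function.Injective f := by
    intro i j hij
    have h1 : x * w i * x⁻¹ = x * w j * x⁻¹ := d.inj _ (hcW _ (hwW i)) _ (hcW _ (hwW j)) (by rw [hf, hf, hij])
    have h2 : w i = w j := by simpa using h1
    apply hsing
    rw [← hw i, ← hw j, h2]
  set π : Equiv.Perm (Fin (2 * m + 1)) := Equiv.ofBijective f (Finite.injective_iff_bijective.mp hfinj) with hπdef
  have hπa : ∀ i, π i = f i := fun i => rfl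
  -- finite sums
  have hsum : ∀ S : Finset (Fin (2 * m + 1)), ∃ u ∈ W, ψ u = ∑ i ∈ S, ind {i}ᶜ ∧ ψ (x * u * x⁻¹) = ∑ i ∈ S, ind {π i}ᶜ := by
    intro S
    induction S using Finset.induction_on with
    | empty =>
      refine ⟨1, W.one_mem, ?_, ?_⟩
      · rw [d.ψ_one]; simp
      · have : x * 1 * x⁻¹ = 1 := by group
        rw [this, d.ψ_one]; simp
    | insert a S ha ih =>
      obtain ⟨u, hu, h1, h2⟩ := ih
      refine ⟨w a * u, mul_mem (hwW a) hu, ?_, ?_⟩
      · rw [d.mul _ (hwW a) _ hu, hw, h1, Finset.sum_insert ha]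
      · have e1 : x * (w a * u) * x⁻¹ = (x * w a * x⁻¹) * (x * u * x⁻¹) := by group
        rw [e1, d.mul _ (hcW _ (hwW a)) _ (hcW _ hu), hf, h2, Finset.sum_insert ha]
        rfl
  have hval : ∀ (S : Finset (Fin (2 * m + 1))) (σ : Equiv.Perm (Fin (2 * m + 1))), Even S.card →
      ∑ i ∈ S, ind ({σ i}ᶜ : Finset (Fin (2 * m + 1))) = ind (S.map σ.toEmbedding) := by
    intro S σ hS
    ext j
    rw [Finset.sum_apply]
    have h1 : ∀ i, ind ({σ i}ᶜ : Finset (Fin (2 * m + 1))) j = 1 + (if σ i = j then (1 : ZMod 2) else 0) := by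
      intro i
      unfold ind
      simp only [Finset.mem_compl, Finset.mem_singleton]
      by_cases h : σ i = j
      · rw [if_neg (by rw [h]; simp), if_pos h]; decide
      · rw [if_pos (fun h2 => h h2.symm), if_neg h, add_zero]
    simp_rw [h1]
    rw [Finset.sum_add_distrib, Finset.sum_const, nsmul_eq_mul, mul_one]
    have h2 : ((S.card : ℕ) : ZMod 2) = 0 := by rw [ZMod.natCast_eq_zero_iff]; exact hS.two_dvd
    rw [h2, zero_add]
    unfold ind
    simp only [Finset.mem_map_equiv]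
    have h3 : ∀ i, (σ i = j) ↔ (i = σ.symm j) := fun i => by rw [Equiv.eq_symm_apply]
    simp_rw [h3]
    rw [Finset.sum_ite_eq' S]
  have hx : ∀ u ∈ W, ∀ i, ψ (x * u * x⁻¹) i = ψ u (π⁻¹ i) := by
    intro u hu i
    obtain ⟨S, hS⟩ := exists_ind (ψ u)
    have hev : Even S.card := by
      rw [← sum_ind_eq, ← hS]; exact d.even u hu
    obtain ⟨u', hu', h1, h2⟩ := hsum S
    have h3 := hval S 1 hev
    simp only [Equiv.Perm.one_apply] at h3
    have h4 : S.map (1 : Equiv.Perm (Fin (2 * m + 1))).toEmbedding = S := by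
      ext a; rw [Finset.mem_map_equiv]; exact Iff.rfl
    rw [h4] at h3
    have h5 : u' = u := d.inj _ hu' _ hu (by rw [h1, h3, hS])
    subst h5
    rw [h2, hval S π hev, ← ind_comp, ← hS]
  have hpow : ∀ k : ℕ, ∀ u ∈ W, ∀ i, ψ (x ^ k * u * (x ^ k)⁻¹) i = ψ u ((π ^ k)⁻¹ i) := by
    intro k
    induction k with
    | zero => intro u hu i; simp
    | succ k ih =>
      intro u hu i
      have e1 : x ^ (k + 1) * u * (x ^ (k + 1))⁻¹ = x ^ k * (x * u * x⁻¹) * (x ^ k)⁻¹ := by
        rw [pow_succ]; group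
      rw [e1, ih _ (hcW u hu), hx u hu]
      have e2 : (π ^ (k + 1))⁻¹ = π⁻¹ * (π ^ k)⁻¹ := by rw [pow_succ, mul_inv_rev]
      rw [e2, Equiv.Perm.mul_apply]
  have hπ1 : π ^ orderOf x = 1 := by
    rw [← inv_inj, inv_one]
    ext1 i
    have h1 := hpow (orderOf x) (w i) (hwW i)
    rw [pow_orderOf_eq_one] at h1
    have h2 : (1 : G) * w i * 1⁻¹ = w i := by group
    rw [h2] at h1
    have h3 := h1 i
    rw [hw] at h3
    unfold ind at h3
    by_contra hne
    simp only [Finset.mem_compl, Finset.mem_singleton, not_true_eq_false, if_false] at h3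
    rw [if_pos (by exact hne)] at h3
    exact zero_ne_one h3
  have hsign : π ∈ alternatingGroup (Fin (2 * m + 1)) := by
    rw [Equiv.Perm.mem_alternatingGroup]
    have h1 := congrArg Equiv.Perm.sign hπ1
    rw [map_pow, map_one] at h1
    rcases Int.units_eq_one_or (Equiv.Perm.sign π) with h2 | h2
    · exact h2
    · rw [h2, ho.neg_one_pow] at h1
      exact absurd h1 (by decide)
  obtain ⟨e, he, he2⟩ := d.F2 π hsign
  refine ⟨e, he, ?_⟩
  rw [mem_centralizer_iff]
  intro u hu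
  have h1 : e * u * e⁻¹ = x * u * x⁻¹ := by
    apply d.inj _ ((mem_normalizer_iff.mp (d.nor he) _).mp hu) _ (hcW u hu)
    ext i
    rw [he2 u hu, hx u hu]
  have h2 : u = e⁻¹ * (x * u * x⁻¹) * e := by rw [← h1]; group
  have h3 : e⁻¹ * x * u = u * (e⁻¹ * x) := by
    calc e⁻¹ * x * u = (e⁻¹ * (x * u * x⁻¹) * e) * (e⁻¹ * x) := by group
      _ = u * (e⁻¹ * x) := by rw [← h2]
  exact h3.symm

end Ev

end Cfsg.Agent.Lib.BN.P4
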