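import Cfsg.Agent.Lib.BBPair13
import Cfsg.Agent.Lib.H56BauO
import Cfsg.Agent.Lib.BNP4A

/-!
# S2987, piece P4 (helper84)
-/

set_option autoImplicit false
set_option linter.unusedSectionVars false

namespace Cfsg.Agent.Lib.BN

open Subgroup Cfsg Cfsg.Agent.Lib.LocBase Cfsg.Agent.Lib.PReduced Cfsg.Agent.Lib.BBlock
open scoped commutatorElement Matrix

universe u
variable {G : Type u} [Group G] [Finite G] {p : ℕ} [hp : Fact p.Prime]

open Classical in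
theorem P4.ev_of {E W : Subgroup G} {m : ℕ} (hm : 2 ≤ m)
    (hact : ActsAsOddPermModuleOnSection (2 * m + 1) (alternatingGroup (Fin (2 * m + 1))) E W ⊥) :
    ∃ ψ : G → (Fin (2 * m + 1) → ZMod 2), P4.Ev m E W ψ := by
  obtain ⟨h1, -, ρ, ψ, hρ, hsum, hψ, hker, hact⟩ := hact
  have e2 : ∀ a (ha : a ∈ W), (if h : a ∈ W then Multiplicative.toAdd (ψ ⟨a, h⟩) else 0) =
    Multiplicative.toAdd (ψ ⟨a, ha⟩) := fun a ha => dif_pos ha
  have key : ∀ (e : ↥E), ∀ u ∈ W, ∀ i, (if h : (e : G) * u * (e : G)⁻¹ ∈ W then Multiplicative.toAdd (ψ ⟨_, h⟩) else 0) i =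
      (if h : u ∈ W then Multiplicative.toAdd (ψ ⟨u, h⟩) else 0) ((ρ e)⁻¹ i) := by
    intro e u hu i
    obtain ⟨w, hw, hw2⟩ := hact e ⟨u, hu⟩
    have h3 : (e : G) * u * (e : G)⁻¹ ∈ W := conj_mem_of_le_normalizer h1 e.2 hu
    have h4 : w = ⟨(e : G) * u * (e : G)⁻¹, h3⟩ := Subtype.ext hw
    rw [h4] at hw2
    rw [e2 u hu, e2 _ h3]
    exact hw2 i
  refine ⟨fun a => if h : a ∈ W then Multiplicative.toAdd (ψ ⟨a, h⟩) else 0,
    { hm := hm, mul := ?_, inj := ?_, even := ?_, surj := ?_, nor := h1, F1 := ?_, F2 := ?_ }⟩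
  · intro u hu v hv
    rw [e2 u hu, e2 v hv, e2 _ (mul_mem hu hv), ← toAdd_mul, ← map_mul]; rfl
  · intro u hu v hv h
    rw [e2 u hu, e2 v hv] at h
    have h2 : ψ (⟨u, hu⟩ * ⟨v, hv⟩⁻¹) = 1 := by
      rw [map_mul, map_inv, mul_inv_eq_one]; exact h
    have h3 := (hker _).mp h2
    rw [mem_bot] at h3
    have h4 : u * v⁻¹ = 1 := h3
    exact mul_inv_eq_one.mp h4
  · intro u hu
    rw [e2 u hu]
    exact hsum _
  · intro v hv
    obtain ⟨u, hu⟩ := hψ v hv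
    exact ⟨u, u.2, by rw [e2 _ u.2]; exact hu⟩
  · intro e he
    exact ⟨ρ ⟨e, he⟩, by rw [← hρ]; exact ⟨_, rfl⟩, key ⟨e, he⟩⟩
  · intro r hr
    rw [← hρ] at hr
    obtain ⟨e, rfl⟩ := hr
    exact ⟨e, e.2, key e⟩

theorem alt_inner {E : Subgroup G} {m : ℕ} (hm : 2 ≤ m) (hQ : pCoreOf 2 E = OZ 2 (pCoreOf 2 E))
    (hZ : pCoreOf 2 E ⊓ centralizer (E : Set G) = ⊥)
    (hact : ActsAsOddPermModuleOnSection (2 * m + 1) (alternatingGroup (Fin (2 * m + 1))) E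
      (OZ 2 (pCoreOf 2 E)) (OZ 2 (pCoreOf 2 E) ⊓ centralizer (E : Set G)))
    {x : G} (hx : x ∈ normalizer (E : Set G)) (ho : Odd (orderOf x)) :
    ∃ e ∈ E, e⁻¹ * x ∈ centralizer (pCoreOf 2 E : Set G) := by
  rw [← hQ, hZ] at hact
  obtain ⟨ψ, d⟩ := P4.ev_of hm hact
  exact d.main hx (normalizer_le_normalizer_pCoreOf 2 E hx) ho

end Cfsg.Agent.Lib.BN
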