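import Cfsg.Agent.Lib.BNP5

/-!
Baumann blocks (S2987), piece P6 (helper99): the case `p = 2`.
-/

set_option autoImplicit false
set_option linter.unusedSectionVars false

namespace Cfsg.Agent.Lib.BN

open Subgroup Cfsg Cfsg.Agent.Lib.LocBase Cfsg.Agent.Lib.PReduced Cfsg.Agent.Lib.BBlock
open scoped commutatorElement Matrix

universe u
variable {G : Type u} [Group G] [Finite G] {p : ℕ} [hp : Fact p.Prime]

theorem p6_four {K : Type} [Field K] [Fintype K] (h4 : Fintype.card K = 4) :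
    ∃ μ : K, μ ≠ 0 ∧ μ ≠ 1 ∧ ∀ c : K, c = 0 ∨ c = 1 ∨ c = μ ∨ c = μ ^ 2 := by
  obtain ⟨μ, hμ0, hμ2⟩ := SLQuasi.exists_sq_ne_one (F := K) (by rw [h4]; norm_num)
  have hμ1 : μ ≠ 1 := fun h => hμ2 (by rw [h, one_pow])
  have hroot : ∀ c : K, c ≠ 0 → c ≠ 1 → c ^ 2 + c + 1 = 0 := by
    intro c h0 h1
    have h2 := FiniteField.pow_card_sub_one_eq_one c h0
    rw [h4] at h2
    have h3 : (c - 1) * (c ^ 2 + c + 1) = 0 := by
      have : (c - 1) * (c ^ 2 + c + 1) = c ^ 3 - 1 := by ring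
      rw [this, sub_eq_zero]
      exact h2
    rcases mul_eq_zero.1 h3 with h5 | h5
    · exact absurd (sub_eq_zero.1 h5) h1
    · exact h5
  refine ⟨μ, hμ0, hμ1, fun c => ?_⟩
  by_cases h0 : c = 0
  · exact Or.inl h0
  by_cases h1 : c = 1
  · exact Or.inr (Or.inl h1)
  have h5 := hroot c h0 h1
  have h6 := hroot μ hμ0 hμ1
  have h7 : (c - μ) * (c + μ + 1) = 0 := by linear_combination h5 - h6
  rcases mul_eq_zero.1 h7 with h8 | h8
  · exact Or.inr (Or.inr (Or.inl (sub_eq_zero.1 h8)))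
  · right; right; right
    linear_combination h8 - h6 + 2 * μ ^ 2 - 2 * μ ^ 2

theorem p6_aut {K : Type} [Field K] [Fintype K] (h4 : Fintype.card K = 4) (σ : K ≃+* K) :
    (∀ c, σ c = c) ∨ (∀ c, σ c = c ^ 2) := by
  obtain ⟨μ, hμ0, hμ1, hall⟩ := p6_four h4
  have h1 : σ μ = μ ∨ σ μ = μ ^ 2 := by
    rcases hall (σ μ) with h | h | h | h
    · exact absurd ((map_eq_zero σ).1 h) hμ0
    · exfalso
      apply hμ1
      apply σ.injective
      rw [h, map_one]
    · exact Or.inl h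
    · exact Or.inr h
  rcases h1 with h1 | h1
  · left
    intro c
    rcases hall c with h | h | h | h
    · rw [h, map_zero]
    · rw [h, map_one]
    · rw [h, h1]
    · rw [h, map_pow, h1]
  · right
    intro c
    rcases hall c with h | h | h | h
    · rw [h, map_zero]; simp
    · rw [h, map_one, one_pow]
    · rw [h, h1]
    · rw [h, map_pow, h1]

theorem p6_sq {K : Type} [Field K] [Fintype K] (h4 : Fintype.card K = 4) {c : K} (hc : c * c = 1) : c = 1 := by
  have h1 := FiniteField.pow_card c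
  rw [h4] at h1
  rw [← h1, show c ^ 4 = (c * c) * (c * c) by ring, hc, one_mul]

theorem p6_card2 {K : Type} [Field K] [Fintype K] : Nat.card (Fin 2 → K) = Fintype.card K * Fintype.card K := by
  rw [Nat.card_eq_fintype_card, Fintype.card_fun, Fintype.card_fin, sq]

theorem p6_fix_le {K : Type} [Field K] [Fintype K] (φ : (Fin 2 → K) → (Fin 2 → K)) (hadd : ∀ v w, φ (v + w) = φ v + φ w)
    (σ : K ≃+* K) (hσ : ∀ (c : K) v, φ (c • v) = σ c • φ v) {μ : K} (hμ : σ μ ≠ μ) :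
    Nat.card {v // φ v = v} ≤ Fintype.card K := by
  have h0 : φ 0 = 0 := by
    have := hadd 0 0
    rw [add_zero] at this
    exact left_eq_add.1 this
  have hsub : ∀ v w, φ (v - w) = φ v - φ w := by
    intro v w
    have h1 := hadd (v - w) w
    rw [sub_add_cancel] at h1
    rw [h1, add_sub_cancel_right]
  have hinj : Function.Injective (fun x : {v // φ v = v} × {v // φ v = v} => (x.1 : Fin 2 → K) + μ • (x.2 : Fin 2 → K)) := by
    rintro ⟨⟨x, hx⟩, ⟨y, hy⟩⟩ ⟨⟨x', hx'⟩, ⟨y', hy'⟩⟩ h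
    simp only at h
    have h1 : x - x' = μ • (y' - y) := by
      rw [smul_sub, sub_eq_sub_iff_add_eq_add, h, add_comm]
    have h2 : φ (x - x') = x - x' := by rw [hsub, hx, hx']
    have h3 : φ (y' - y) = y' - y := by rw [hsub, hy, hy']
    have h4 : (σ μ - μ) • (y' - y) = 0 := by
      rw [h1, hσ, h3] at h2
      rw [sub_smul, h2, sub_self]
    have h5 : y' - y = 0 := (smul_eq_zero.1 h4).resolve_left (sub_ne_zero.2 hμ)
    have h6 : x - x' = 0 := by rw [h1, h5, smul_zero]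
    have h7 := sub_eq_zero.1 h5
    have h8 := sub_eq_zero.1 h6
    subst h7 h8
    rfl
  have h1 := Nat.card_le_card_of_injective _ hinj
  rw [Nat.card_prod, p6_card2] at h1
  exact Nat.mul_self_le_mul_self_iff.1 h1

/-- the structure of a linear action -/
theorem p6_lin {K : Type} [Field K] [Fintype K] (h3 : 3 < Fintype.card K) (Wb : AddSubgroup (Fin 2 → K)) (hWb : Nat.card Wb ≤ 4)
    (hW1 : ∃ w ∈ Wb, w ≠ 0) (φ : (Fin 2 → K) → (Fin 2 → K)) (hadd : ∀ v w, φ (v + w) = φ v + φ w)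
    (σ : K ≃+* K) (hσ : ∀ (c : K) v, φ (c • v) = σ c • φ v) (hδ : ∀ v, φ v - v ∈ Wb) (hfix : ∀ w ∈ Wb, φ w = w → w = 0)
    (h33 : ∀ v, φ (φ (φ v)) = v) :
    Fintype.card K = 4 ∧ ∃ w₀ n₀ : Fin 2 → K, w₀ ∈ Wb ∧ (∀ w ∈ Wb, ∃ c : K, w = c • w₀) ∧ φ n₀ = n₀ ∧
      (∀ v, φ v = v → ∃ c : K, v = c • n₀) ∧ ∀ v, ∃ a b : K, v = a • w₀ + b • n₀ := by
  classical
  have h0 : φ 0 = 0 := by
    have := hadd 0 0
    rw [add_zero] at this
    exact left_eq_add.1 this
  have hsub : ∀ v w, φ (v - w) = φ v - φ w := by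
    intro v w
    have h1 := hadd (v - w) w
    rw [sub_add_cancel] at h1
    rw [h1, add_sub_cancel_right]
  have hqpos : 0 < Fintype.card K := Fintype.card_pos
  -- the map `w ↦ φ w - w` on `Wb`
  have hsurj : ∀ w ∈ Wb, ∃ w' ∈ Wb, φ w' - w' = w := by
    have hinj : Function.Injective (fun w : Wb => (⟨φ w - w, hδ w⟩ : Wb)) := by
      intro x y h
      have h1 : φ x - x = φ y - y := congrArg Subtype.val h
      have h2 : φ ((x : Fin 2 → K) - y) = x - y := by
        rw [hsub]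
        have : φ x = φ y - y + x := by rw [← h1, sub_add_cancel]
        rw [this]; abel
      have h3 := hfix _ (Wb.sub_mem x.2 y.2) h2
      exact Subtype.ext (sub_eq_zero.1 h3)
    have hs := Finite.injective_iff_surjective.1 hinj
    intro w hw
    obtain ⟨w', hw'⟩ := hs ⟨w, hw⟩
    exact ⟨w', w'.2, congrArg Subtype.val hw'⟩
  -- `φ` is linear
  have hlin : ∀ c, σ c = c := by
    by_contra hcon
    push Not at hcon
    obtain ⟨μ, hμ⟩ := hcon
    have h1 := p6_fix_le φ hadd σ hσ hμ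
    have hinj : Function.Injective (fun v : Fin 2 → K =>
        ((⟨φ v - v, hδ v⟩, ⟨v - Function.invFun (fun v => φ v - v) (φ v - v), by
          have hi : φ (Function.invFun (fun v => φ v - v) (φ v - v)) - Function.invFun (fun v => φ v - v) (φ v - v) = φ v - v :=
            Function.invFun_eq (f := fun v => φ v - v) ⟨v, rfl⟩
          obtain ⟨r, hr⟩ : ∃ r, r = Function.invFun (fun v => φ v - v) (φ v - v) := ⟨_, rfl⟩
          rw [← hr] at hi ⊢
          rw [hsub]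
          have : φ r = φ v - v + r := by rw [← hi, sub_add_cancel]
          rw [this]; abel⟩) : Wb × {v // φ v = v})) := by
      intro v w h
      have e1 : φ v - v = φ w - w := congrArg (fun x => (x.1 : Fin 2 → K)) h
      have e2 : v - Function.invFun (fun v => φ v - v) (φ v - v) = w - Function.invFun (fun v => φ v - v) (φ w - w) :=
        congrArg (fun x => (x.2 : Fin 2 → K)) h
      rw [e1] at e2
      exact sub_left_injective e2
    have h2 := Nat.card_le_card_of_injective _ hinj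
    rw [Nat.card_prod, p6_card2] at h2
    have h4 : Fintype.card K * Fintype.card K ≤ 4 * Fintype.card K := h2.trans (Nat.mul_le_mul hWb h1)
    have h5 : Fintype.card K ≤ 4 := Nat.le_of_mul_le_mul_right h4 hqpos
    have h6 : Fintype.card K = 4 := by omega
    have h7 : σ (σ (σ μ)) = μ := by
      obtain ⟨w, hw, hw0⟩ := hW1
      have h8 := h33 (μ • w)
      rw [hσ, hσ, hσ, h33] at h8
      have h9 : (σ (σ (σ μ)) - μ) • w = 0 := by rw [sub_smul, h8, sub_self]
      exact sub_eq_zero.1 ((smul_eq_zero.1 h9).resolve_right hw0)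
    rcases p6_aut h6 σ with h8 | h8
    · exact hμ (h8 μ)
    · have h9 := FiniteField.pow_card μ
      rw [h6] at h9
      rw [h8, h8, h8] at h7
      apply hμ
      rw [h8]
      calc μ ^ 2 = (μ ^ 4) ^ 2 := by rw [h9]
        _ = ((μ ^ 2) ^ 2) ^ 2 := by ring
        _ = μ := h7
  have hlin' : ∀ (c : K) v, φ (c • v) = c • φ v := fun c v => by rw [hσ, hlin]
  obtain ⟨w₀, hw0, hw00⟩ := hW1
  have hKw : ∀ c : K, c • w₀ ∈ Wb := by
    intro c
    obtain ⟨w', hw', h1⟩ := hsurj w₀ hw0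
    have h2 := hδ (c • w')
    rwa [hlin', ← smul_sub, h1] at h2
  have hinjw : Function.Injective (fun c : K => (⟨c • w₀, hKw c⟩ : Wb)) := by
    intro a b h
    have h1 : a • w₀ = b • w₀ := congrArg Subtype.val h
    have h9 : (a - b) • w₀ = 0 := by rw [sub_smul, h1, sub_self]
    exact sub_eq_zero.1 ((smul_eq_zero.1 h9).resolve_right hw00)
  have hq1 : Fintype.card K ≤ 4 := by
    have h1 := Nat.card_le_card_of_injective _ hinjw
    rw [Nat.card_eq_fintype_card] at h1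
    exact h1.trans hWb
  have hq : Fintype.card K = 4 := by omega
  have hWK : ∀ w ∈ Wb, ∃ c : K, w = c • w₀ := by
    have hb : Function.Bijective (fun c : K => (⟨c • w₀, hKw c⟩ : Wb)) := by
      refine (Nat.bijective_iff_injective_and_card _).2 ⟨hinjw, le_antisymm (Nat.card_le_card_of_injective _ hinjw) ?_⟩
      have e4 : Nat.card K = 4 := by rw [Nat.card_eq_fintype_card, hq]
      rw [e4]
      exact hWb
    intro w hw
    obtain ⟨c, hc⟩ := hb.2 ⟨w, hw⟩
    exact ⟨c, (congrArg Subtype.val hc).symm⟩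
  have hdec : ∀ v, ∃ c : K, φ (v - c • w₀) = v - c • w₀ := by
    intro v
    obtain ⟨w', hw', h1⟩ := hsurj _ (hδ v)
    obtain ⟨c, rfl⟩ := hWK w' hw'
    refine ⟨c, ?_⟩
    rw [hsub]
    have : φ (c • w₀) = φ v - v + c • w₀ := by rw [← h1, sub_add_cancel]
    rw [this]; abel
  obtain ⟨v₁, hv1⟩ : ∃ v : Fin 2 → K, ∀ c : K, v ≠ c • w₀ := by
    by_contra hcon
    push Not at hcon
    have hs : Function.Surjective (fun c : K => c • w₀) := fun v => by
      obtain ⟨c, hc⟩ := hcon v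
      exact ⟨c, hc.symm⟩
    have h1 := Nat.card_le_card_of_surjective _ hs
    rw [p6_card2, Nat.card_eq_fintype_card, hq] at h1
    omega
  obtain ⟨c₁, hc1⟩ := hdec v₁
  obtain ⟨n₀, hn⟩ : ∃ n₀, n₀ = v₁ - c₁ • w₀ := ⟨_, rfl⟩
  rw [← hn] at hc1
  have hn0 : n₀ ≠ 0 := by
    rw [hn]
    exact sub_ne_zero.2 (hv1 c₁)
  have hinj2 : Function.Injective (fun x : K × K => x.1 • w₀ + x.2 • n₀) := by
    rintro ⟨a, b⟩ ⟨a', b'⟩ h
    simp only at h
    have h1 : (a - a') • w₀ = (b' - b) • n₀ := by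
      rw [sub_smul, sub_smul, sub_eq_sub_iff_add_eq_add, h, add_comm]
    have h2 : φ ((a - a') • w₀) = (a - a') • w₀ := by rw [h1, hlin', hc1]
    have h4 := hfix _ (hKw _) h2
    have h5 := sub_eq_zero.1 ((smul_eq_zero.1 h4).resolve_right hw00)
    rw [h4] at h1
    have h6 := sub_eq_zero.1 ((smul_eq_zero.1 h1.symm).resolve_right hn0)
    rw [h5, h6]
  have hdec2 : ∀ v, ∃ a b : K, v = a • w₀ + b • n₀ := by
    have hb : Function.Bijective (fun x : K × K => x.1 • w₀ + x.2 • n₀) := by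
      refine (Nat.bijective_iff_injective_and_card _).2 ⟨hinj2, ?_⟩
      rw [Nat.card_prod, p6_card2, Nat.card_eq_fintype_card]
    intro v
    obtain ⟨⟨a, b⟩, hab⟩ := hb.2 v
    exact ⟨a, b, hab.symm⟩
  refine ⟨hq, w₀, n₀, hw0, hWK, hc1, fun v hv => ?_, hdec2⟩
  obtain ⟨a, b, rfl⟩ := hdec2 v
  refine ⟨b, ?_⟩
  have h1 : φ (a • w₀) = a • w₀ := by
    have h2 : a • w₀ = (a • w₀ + b • n₀) - b • n₀ := by rw [add_sub_cancel_right]
    rw [h2, hsub, hv, hlin', hc1]
  rw [hfix _ (hKw a) h1, zero_add]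

theorem d7_two {K : Type} [Field K] [Fintype K] {n : ℕ} (hK : Fintype.card K = 2 ^ n) (h3 : 3 < Fintype.card K)
    {E U X W T : Subgroup G} (s : H56Bau.NatSec K E U (U ⊓ centralizer (E : Set G)))
    (hUn : normalizer (E : Set G) ≤ normalizer (U : Set G)) (hXn : normalizer (E : Set G) ≤ normalizer (X : Set G))
    (hXU : X ⊔ (U ⊓ centralizer (E : Set G)) = U) (hXe : IsElementaryAbelian 2 X) (hXT : X ≤ T) (hT : IsPGroup 2 T)
    (hWX : W ≤ X) (hW : Nat.card ↥W = 4) (hWc : ∀ w ∈ W, w ∈ centralizer (E : Set G) → w = 1)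
    {f : G} (hfE : f ∈ normalizer (E : Set G)) (hf3 : f ^ 3 = 1) (hfix : ∀ w ∈ W, f * w = w * f → w = 1)
    (hcomm : ∀ x ∈ X, ⁅f, x⁆ ∈ W)
    (htriv : ∀ c ∈ normalizer (E : Set G), (∀ x ∈ X, ⁅c, x⁆ ∈ centralizer (E : Set G)) → c ∈ centralizer (X : Set G))
    {A : Subgroup G} (hA : A ∈ ThompsonJ.maxIn (Cfsg.IsElementaryAbelian 2) T) (hAE : A ≤ normalizer (E : Set G))
    (hAW : A ≤ normalizer (W : Set G)) (hAF : A ≤ normalizer ((W ⊔ zpowers f : Subgroup G) : Set G)) :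
    A ≤ centralizer (W : Set G) := by
  classical
  have hXU' : X ≤ U := hXU ▸ le_sup_left
  have hWU : W ≤ U := hWX.trans hXU'
  have hXc : ∀ x ∈ X, ∀ y ∈ X, x * y = y * x := fun x hx y hy =>
    congrArg Subtype.val (hXe.1.is_comm.comm ⟨x, hx⟩ ⟨y, hy⟩)
  have nC : normalizer (E : Set G) ≤ normalizer ((centralizer (E : Set G) : Subgroup G) : Set G) := by
    intro h hh
    rw [mem_normalizer_iff]
    have key : ∀ h ∈ normalizer (E : Set G), ∀ c ∈ centralizer (E : Set G), h * c * h⁻¹ ∈ centralizer (E : Set G) := by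
      intro h hh c hc
      rw [mem_centralizer_iff] at hc ⊢
      intro e he
      have h1 := hc (h⁻¹ * e * h) (by
        have := (mem_normalizer_iff.1 (inv_mem hh) e).1 he
        rwa [inv_inv] at this)
      calc e * (h * c * h⁻¹) = h * ((h⁻¹ * e * h) * c) * h⁻¹ := by group
        _ = h * (c * (h⁻¹ * e * h)) * h⁻¹ := by rw [h1]
        _ = h * c * h⁻¹ * e := by group
    intro c
    refine ⟨key h hh c, fun hc => ?_⟩
    have h1 := key _ (inv_mem hh) _ hc
    have h2 : h⁻¹ * (h * c * h⁻¹) * h⁻¹⁻¹ = c := by group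
    rwa [h2] at h1
  have nU₀ : normalizer (E : Set G) ≤ normalizer ((U ⊓ centralizer (E : Set G) : Subgroup G) : Set G) := by
    intro h hh
    rw [mem_normalizer_iff]
    intro u
    have h1 := mem_normalizer_iff.1 (hUn hh) u
    have h2 := mem_normalizer_iff.1 (nC hh) u
    exact and_congr h1 h2
  have sem : ∀ h ∈ normalizer (E : Set G), ∃ σ : K ≃+* K, ∀ (c : K) v, p5_phi s h (c • v) = σ c • p5_phi s h v :=
    fun h hh => p5_semi h3 s hh (hUn hh) (nU₀ hh)
  have padd : ∀ h ∈ normalizer (E : Set G), ∀ v w, p5_phi s h (v + w) = p5_phi s h v + p5_phi s h w :=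
    fun h hh => p5_phi_add s (hUn hh) (nU₀ hh)
  have pmul : ∀ h ∈ normalizer (E : Set G), ∀ k ∈ normalizer (E : Set G), ∀ v,
      p5_phi s (h * k) v = p5_phi s h (p5_phi s k v) :=
    fun h hh k hk => p5_phi_mul s (hUn hh) (nU₀ hh) (hUn hk)
  have hXs : ∀ v, ∃ x ∈ X, s.ψ x = v := by
    let S : Subgroup G :=
      { carrier := {u | u ∈ U ∧ ∃ x ∈ X, s.ψ x = s.ψ u}
        one_mem' := ⟨one_mem _, 1, one_mem _, rfl⟩
        mul_mem' := by
          rintro a b ⟨ha, x, hx, hxa⟩ ⟨hb, y, hy, hyb⟩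
          exact ⟨mul_mem ha hb, x * y, mul_mem hx hy, by
            rw [s.ψ_mul _ (hXU' hx) _ (hXU' hy), s.ψ_mul _ ha _ hb, hxa, hyb]⟩
        inv_mem' := by
          rintro a ⟨ha, x, hx, hxa⟩
          exact ⟨inv_mem ha, x⁻¹, inv_mem hx, by rw [s.ψ_inv (hXU' hx), s.ψ_inv ha, hxa]⟩ }
    have hUS : U ≤ S := by
      rw [← hXU]
      refine sup_le (fun x hx => ⟨hXU' hx, x, hx, rfl⟩) (fun u hu => ⟨hu.1, 1, one_mem _, ?_⟩)
      rw [s.ψ_one, s.ψ_zero hu]
    intro v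
    obtain ⟨u, hu, rfl⟩ := s.ψ_surj v
    exact (hUS hu).2
  have pψ : ∀ h ∈ normalizer (E : Set G), ∀ u ∈ U, s.ψ (h * u * h⁻¹) = p5_phi s h (s.ψ u) :=
    fun h hh u hu => p5_phi_ψ s (hUn hh) (nU₀ hh) hu
  have hconjU : ∀ h ∈ normalizer (E : Set G), ∀ u ∈ U, h * u * h⁻¹ ∈ U := fun h hh u hu =>
    (mem_normalizer_iff.1 (hUn hh) u).1 hu
  have pcomm : ∀ h ∈ normalizer (E : Set G), ∀ u ∈ U, s.ψ ⁅h, u⁆ = p5_phi s h (s.ψ u) - s.ψ u := by
    intro h hh u hu
    rw [commutatorElement_def, s.ψ_mul _ (hconjU h hh u hu) _ (inv_mem hu), pψ h hh u hu, s.ψ_inv hu, sub_eq_add_neg]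
  have hW0 : ∀ w ∈ W, s.ψ w = 0 → w = 1 := fun w hw h => hWc w hw ((s.ψ_ker w (hWU hw)).1 h).2
  let Wb : AddSubgroup (Fin 2 → K) :=
    { carrier := s.ψ '' (W : Set G)
      zero_mem' := ⟨1, one_mem _, s.ψ_one⟩
      add_mem' := by
        rintro _ _ ⟨a, ha, rfl⟩ ⟨b, hb, rfl⟩
        exact ⟨a * b, mul_mem ha hb, s.ψ_mul _ (hWU ha) _ (hWU hb)⟩
      neg_mem' := by
        rintro _ ⟨a, ha, rfl⟩
        exact ⟨a⁻¹, inv_mem ha, s.ψ_inv (hWU ha)⟩ }
  have hWb : Nat.card Wb ≤ 4 := by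
    rw [← hW]
    exact Nat.card_le_card_of_surjective (fun w : W => (⟨s.ψ w, w, w.2, rfl⟩ : Wb)) (by
      rintro ⟨_, w, hw, rfl⟩
      exact ⟨⟨w, hw⟩, rfl⟩)
  have hW1 : ∃ w ∈ Wb, w ≠ 0 := by
    have hne : W ≠ ⊥ := by
      rintro rfl
      rw [Subgroup.card_bot] at hW
      omega
    obtain ⟨w, hw, hw1⟩ : ∃ w ∈ W, w ≠ 1 := by
      by_contra hcon
      push Not at hcon
      exact hne ((Subgroup.eq_bot_iff_forall W).2 hcon)
    exact ⟨s.ψ w, ⟨w, hw, rfl⟩, fun h => hw1 (hW0 w hw h)⟩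
  obtain ⟨σf, hσf⟩ := sem f hfE
  have hδ : ∀ v, p5_phi s f v - v ∈ Wb := by
    intro v
    obtain ⟨x, hx, rfl⟩ := hXs v
    exact ⟨_, hcomm x hx, pcomm f hfE x (hXU' hx)⟩
  have hfixb : ∀ w ∈ Wb, p5_phi s f w = w → w = 0 := by
    rintro _ ⟨w, hw, rfl⟩ h
    have h1 := pcomm f hfE w (hWU hw)
    rw [h, sub_self] at h1
    have h2 := hW0 _ (hcomm w (hWX hw)) h1
    rw [hfix w hw (commutatorElement_eq_one_iff_mul_comm.1 h2), s.ψ_one]
  have h33 : ∀ v, p5_phi s f (p5_phi s f (p5_phi s f v)) = v := by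
    intro v
    rw [← pmul f hfE f hfE, ← pmul _ (mul_mem hfE hfE) f hfE, show f * f * f = f ^ 3 by rw [pow_succ, pow_two], hf3, p5_phi_one]
  obtain ⟨hq, w₀, n₀, hw0, hWK, hn0, hNK, hdec⟩ := p6_lin h3 Wb hWb hW1 (p5_phi s f) (padd f hfE) σf hσf hδ hfixb h33
  -- elements of `U` act trivially
  have hUtriv : ∀ w ∈ U, ∀ v, p5_phi s w v = v := by
    intro w hw v
    show s.ψ (w * p5_lift s v * w⁻¹) = v
    rw [s.ψ_mul _ (mul_mem hw (p5_lift_mem s v)) _ (inv_mem hw), s.ψ_mul _ hw _ (p5_lift_mem s v), s.ψ_inv hw, p5_ψ_lift]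
    abel
  have hUnor : ∀ w ∈ U, w ∈ normalizer (U : Set G) := fun w hw => le_normalizer hw
  have hUnor₀ : ∀ w ∈ U, w ∈ normalizer ((U ⊓ centralizer (E : Set G) : Subgroup G) : Set G) := by
    have key : ∀ w ∈ U, ∀ u ∈ U ⊓ centralizer (E : Set G), w * u * w⁻¹ ∈ U ⊓ centralizer (E : Set G) := by
      intro w hw u hu
      refine (s.ψ_ker _ (mul_mem (mul_mem hw hu.1) (inv_mem hw))).1 ?_
      rw [s.ψ_mul _ (mul_mem hw hu.1) _ (inv_mem hw), s.ψ_mul _ hw _ hu.1, s.ψ_inv hw, s.ψ_zero hu]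
      abel
    intro w hw
    rw [mem_normalizer_iff]
    intro u
    refine ⟨key w hw u, fun hu => ?_⟩
    have h1 := key _ (inv_mem hw) _ hu
    have h2 : w⁻¹ * (w * u * w⁻¹) * w⁻¹⁻¹ = u := by group
    rwa [h2] at h1
  -- `A` acts on the fixed space of `f`
  have hAN : ∀ a ∈ A, ∀ v, p5_phi s f v = v → p5_phi s f (p5_phi s a v) = p5_phi s a v := by
    intro a ha v hv
    have haE := hAE ha
    let S : Subgroup G :=
      { carrier := {g | g ∈ normalizer (U : Set G) ∧ g ∈ normalizer ((U ⊓ centralizer (E : Set G) : Subgroup G) : Set G) ∧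
          p5_phi s g v = v}
        one_mem' := ⟨one_mem _, one_mem _, p5_phi_one s v⟩
        mul_mem' := by
          rintro x y ⟨hx1, hx2, hx3⟩ ⟨hy1, hy2, hy3⟩
          exact ⟨mul_mem hx1 hy1, mul_mem hx2 hy2, by rw [p5_phi_mul s hx1 hx2 hy1, hy3, hx3]⟩
        inv_mem' := by
          rintro x ⟨hx1, hx2, hx3⟩
          refine ⟨inv_mem hx1, inv_mem hx2, ?_⟩
          have h1 := p5_phi_mul s (inv_mem hx1) (inv_mem hx2) hx1 v
          rw [inv_mul_cancel, p5_phi_one, hx3] at h1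
          exact h1.symm }
    have hFS : W ⊔ zpowers f ≤ S := by
      refine sup_le (fun w hw => ⟨hUnor w (hWU hw), hUnor₀ w (hWU hw), hUtriv w (hWU hw) v⟩) ?_
      rw [zpowers_le]
      exact ⟨hUn hfE, nU₀ hfE, hv⟩
    have h1 : a⁻¹ * f * a ∈ W ⊔ zpowers f := by
      have h2 := (mem_normalizer_iff.1 (inv_mem (hAF ha)) f).1 (le_sup_right (a := W) (mem_zpowers f))
      rwa [inv_inv] at h2
    obtain ⟨-, -, h4⟩ := hFS h1
    rw [pmul _ (mul_mem (inv_mem haE) hfE) a haE, pmul _ (inv_mem haE) f hfE] at h4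
    have h5 := congrArg (p5_phi s a) h4
    rw [← pmul a haE _ (inv_mem haE), mul_inv_cancel, p5_phi_one] at h5
    exact h5
  have hAWb : ∀ a ∈ A, ∀ v ∈ Wb, p5_phi s a v ∈ Wb := by
    rintro a ha _ ⟨w, hw, rfl⟩
    rw [← pψ a (hAE ha) w (hWU hw)]
    exact ⟨_, (mem_normalizer_iff.1 (hAW ha) w).1 hw, rfl⟩
  obtain ⟨hAT, hAe, hAmax⟩ := hA
  have hAc : ∀ x ∈ A, ∀ y ∈ A, x * y = y * x := fun x hx y hy =>
    congrArg Subtype.val (hAe.1.is_comm.comm ⟨x, hx⟩ ⟨y, hy⟩)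
  have h22 : ∀ a ∈ A, ∀ v, p5_phi s a (p5_phi s a v) = v := by
    intro a ha v
    rw [← pmul a (hAE ha) a (hAE ha), ← pow_two, hAe.2 a ha, p5_phi_one]
  -- linear elements of `A` centralize `X`
  have hlinA : ∀ a ∈ A, ∀ σ : K ≃+* K, (∀ (c : K) v, p5_phi s a (c • v) = σ c • p5_phi s a v) → (∀ c, σ c = c) →
      a ∈ centralizer (X : Set G) := by
    intro a ha σ hσ hσ1
    have hsc : ∀ w : Fin 2 → K, (∃ c : K, p5_phi s a w = c • w) → p5_phi s a w = w := by
      rintro w ⟨c, hc⟩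
      by_cases hw : w = 0
      · rw [hw] at hc ⊢
        rw [hc, smul_zero]
      have h1 := h22 a ha w
      rw [hc, hσ, hσ1, hc, smul_smul] at h1
      have h2 : (c * c - 1) • w = 0 := by rw [sub_smul, h1, one_smul, sub_self]
      have h4 := p6_sq hq (sub_eq_zero.1 ((smul_eq_zero.1 h2).resolve_right hw))
      rw [hc, h4, one_smul]
    have h1 : p5_phi s a w₀ = w₀ := hsc _ (hWK _ (hAWb a ha _ hw0))
    have h2 : p5_phi s a n₀ = n₀ := hsc _ (hNK _ (hAN a ha _ hn0))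
    refine htriv a (hAE ha) fun x hx => ?_
    have h4 : s.ψ ⁅a, x⁆ = 0 := by
      rw [pcomm a (hAE ha) x (hXU' hx)]
      obtain ⟨b, c, hbc⟩ := hdec (s.ψ x)
      rw [hbc, padd a (hAE ha), hσ, hσ, hσ1, hσ1, h1, h2, sub_self]
    have h5 : ⁅a, x⁆ ∈ U := by
      rw [commutatorElement_def]
      exact mul_mem (hconjU a (hAE ha) x (hXU' hx)) (inv_mem (hXU' hx))
    exact ((s.ψ_ker _ h5).1 h4).2
  suffices hAX : A ≤ centralizer (X : Set G) from hAX.trans (centralizer_le (by exact_mod_cast hWX))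
  by_contra hcon
  obtain ⟨a, ha, haX⟩ := SetLike.not_le_iff_exists.1 hcon
  have hsq : ∀ b ∈ A, b ∉ centralizer (X : Set G) → ∃ σ : K ≃+* K, (∀ (c : K) v, p5_phi s b (c • v) = σ c • p5_phi s b v) ∧
      ∀ c, σ c = c ^ 2 := by
    intro b hb hbX
    obtain ⟨σ, hσ⟩ := sem b (hAE hb)
    refine ⟨σ, hσ, ?_⟩
    rcases p6_aut hq σ with h | h
    · exact absurd (hlinA b hb σ hσ h) hbX
    · exact h
  obtain ⟨σ, hσ, hσ2⟩ := hsq a ha haX
  have hprod : ∀ b ∈ A, b ∉ centralizer (X : Set G) → a * b ∈ centralizer (X : Set G) := by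
    intro b hb hbX
    obtain ⟨τ, hτ, hτ2⟩ := hsq b hb hbX
    refine hlinA (a * b) (mul_mem ha hb) (τ.trans σ) (fun c v => ?_) (fun c => ?_)
    · rw [pmul a (hAE ha) b (hAE hb), pmul a (hAE ha) b (hAE hb), hτ, hσ]
      rfl
    · show σ (τ c) = c
      rw [hτ2, hσ2, ← pow_mul]
      have := FiniteField.pow_card c
      rw [hq] at this
      exact this
  -- `|A| ≤ 2 |C_A(X)|`
  have hcA : Nat.card A ≤ 2 * Nat.card (A ⊓ centralizer (X : Set G) : Subgroup G) := by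
    have hinj : Function.Injective (fun b : A => if hb : (b : G) ∈ centralizer (X : Set G) then
        (Sum.inl ⟨b, b.2, hb⟩ : ↥(A ⊓ centralizer (X : Set G)) ⊕ ↥(A ⊓ centralizer (X : Set G)))
        else Sum.inr ⟨a * b, mul_mem ha b.2, hprod b b.2 hb⟩) := by
      intro b c h
      simp only at h
      split_ifs at h with h1 h2 h2
      · have e1 := Sum.inl.inj h
        have e2 := congrArg Subtype.val e1
        exact Subtype.ext e2
      · have e1 := Sum.inr.inj h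
        have e2 := congrArg Subtype.val e1
        exact Subtype.ext (mul_left_cancel e2)
    have h1 := Nat.card_le_card_of_injective _ hinj
    rw [Nat.card_sum] at h1
    omega
  -- offender inequality
  have hY : Nat.card X ≤ 2 * Nat.card (X ⊓ centralizer (A : Set G) : Subgroup G) := by
    let C := A ⊓ centralizer (X : Set G)
    have hCX : ∀ x ∈ X, ∀ c ∈ C, x * c = c * x := fun x hx c hc => mem_centralizer_iff.1 hc.2 x hx
    let B : Subgroup G :=
      { carrier := {g | ∃ x ∈ X, ∃ c ∈ C, g = x * c}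
        one_mem' := ⟨1, one_mem _, 1, one_mem _, by rw [mul_one]⟩
        mul_mem' := by
          rintro _ _ ⟨x, hx, c, hc, rfl⟩ ⟨y, hy, d, hd, rfl⟩
          refine ⟨x * y, mul_mem hx hy, c * d, mul_mem hc hd, ?_⟩
          rw [mul_assoc, ← mul_assoc c, ← hCX y hy c hc]
          simp only [mul_assoc]
        inv_mem' := by
          rintro _ ⟨x, hx, c, hc, rfl⟩
          exact ⟨x⁻¹, inv_mem hx, c⁻¹, inv_mem hc, by rw [mul_inv_rev, hCX _ (inv_mem hx) _ (inv_mem hc)]⟩ }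
    have hBT : B ≤ T := by
      rintro _ ⟨x, hx, c, hc, rfl⟩
      exact mul_mem (hXT hx) (hAT hc.1)
    have hBe : IsElementaryAbelian 2 B := by
      refine ⟨⟨⟨?_⟩⟩, ?_⟩
      · rintro ⟨_, x, hx, c, hc, rfl⟩ ⟨_, y, hy, d, hd, rfl⟩
        refine Subtype.ext ?_
        show x * c * (y * d) = y * d * (x * c)
        calc x * c * (y * d) = x * (c * y) * d := by simp only [mul_assoc]
          _ = x * (y * c) * d := by rw [← hCX y hy c hc]
          _ = (x * y) * (c * d) := by simp only [mul_assoc]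
          _ = (y * x) * (d * c) := by rw [hXc x hx y hy, hAc c hc.1 d hd.1]
          _ = y * (x * d) * c := by simp only [mul_assoc]
          _ = y * (d * x) * c := by rw [hCX x hx d hd]
          _ = _ := by simp only [mul_assoc]
      · rintro _ ⟨x, hx, c, hc, rfl⟩
        have h1 : (x * c) ^ 2 = (x ^ 2) * (c ^ 2) := (show Commute x c from hCX x hx c hc).mul_pow 2
        rw [h1, hXe.2 x hx, hAe.2 c hc.1, one_mul]
    have hBc := hAmax B hBT hBe
    -- `X × C → B × (X ⊓ C(A))`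
    have hsurj : Function.Surjective (fun y : X × C => (⟨y.1 * y.2, y.1, y.1.2, y.2, y.2.2, rfl⟩ : B)) := by
      rintro ⟨_, x, hx, c, hc, rfl⟩
      exact ⟨(⟨x, hx⟩, ⟨c, hc⟩), rfl⟩
    have hXA : ∀ x ∈ X, x ∈ C → x ∈ X ⊓ centralizer (A : Set G) := fun x hx hxC =>
      ⟨hx, mem_centralizer_iff.2 fun b hb => hAc b hb x hxC.1⟩
    have hinj : Function.Injective (fun y : X × C => ((⟨y.1 * y.2, y.1, y.1.2, y.2, y.2.2, rfl⟩ : B),
        (⟨(Function.surjInv hsurj ⟨y.1 * y.2, y.1, y.1.2, y.2, y.2.2, rfl⟩).1⁻¹ * (y.1 : G), by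
          have h1 := Function.surjInv_eq hsurj ⟨y.1 * y.2, y.1, y.1.2, y.2, y.2.2, rfl⟩
          obtain ⟨z, hz⟩ : ∃ z, z = Function.surjInv hsurj ⟨y.1 * y.2, y.1, y.1.2, y.2, y.2.2, rfl⟩ := ⟨_, rfl⟩
          rw [← hz] at h1 ⊢
          have h2 : (z.1 : G) * z.2 = y.1 * y.2 := congrArg Subtype.val h1
          refine hXA _ (mul_mem (inv_mem z.1.2) y.1.2) ?_
          have h4 : (z.1 : G)⁻¹ * y.1 = z.2 * (y.2 : G)⁻¹ := by
            rw [inv_mul_eq_iff_eq_mul, ← mul_assoc, h2, mul_inv_cancel_right]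
          show (z.1 : G)⁻¹ * (y.1 : G) ∈ C
          rw [h4]
          exact mul_mem z.2.2 (inv_mem y.2.2)⟩ : ↥(X ⊓ centralizer (A : Set G))))) := by
      rintro ⟨⟨x, hx⟩, ⟨c, hc⟩⟩ ⟨⟨x', hx'⟩, ⟨c', hc'⟩⟩ h
      have e1 : (⟨x * c, x, hx, c, hc, rfl⟩ : B) = ⟨x' * c', x', hx', c', hc', rfl⟩ := congrArg Prod.fst h
      have e2 : ((Function.surjInv hsurj ⟨x * c, x, hx, c, hc, rfl⟩).1 : G)⁻¹ * x =
          ((Function.surjInv hsurj ⟨x' * c', x', hx', c', hc', rfl⟩).1 : G)⁻¹ * x' :=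
        congrArg (fun y => (y.2 : G)) h
      rw [e1] at e2
      have e3 := mul_left_cancel e2
      have e4 : x * c = x' * c' := congrArg Subtype.val e1
      subst e3
      have e5 := mul_left_cancel e4
      subst e5
      rfl
    have h1 := Nat.card_le_card_of_injective _ hinj
    rw [Nat.card_prod, Nat.card_prod] at h1
    have hCpos : 0 < Nat.card C := Nat.card_pos
    have h2 : Nat.card X * Nat.card C ≤ 2 * Nat.card (X ⊓ centralizer (A : Set G) : Subgroup G) * Nat.card C := by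
      calc Nat.card X * Nat.card C ≤ Nat.card B * Nat.card (X ⊓ centralizer (A : Set G) : Subgroup G) := h1
        _ ≤ (2 * Nat.card C) * Nat.card (X ⊓ centralizer (A : Set G) : Subgroup G) := Nat.mul_le_mul_right _ (hBc.trans hcA)
        _ = _ := by ring
    exact Nat.le_of_mul_le_mul_right h2 hCpos
  -- the fixed space of `a` is too small
  obtain ⟨μ, hμ0, hμ1, -⟩ := p6_four hq
  have hμ : σ μ ≠ μ := by
    rw [hσ2]
    intro h
    apply hμ1
    have : μ * (μ - 1) = 0 := by rw [mul_sub, mul_one, ← pow_two, h, sub_self]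
    exact sub_eq_zero.1 ((mul_eq_zero.1 this).resolve_left hμ0)
  have hfl := p6_fix_le (p5_phi s a) (padd a (hAE ha)) σ hσ hμ
  rw [hq] at hfl
  let ψX : ↥X →* Multiplicative (Fin 2 → K) := MonoidHom.mk' (fun x => Multiplicative.ofAdd (s.ψ x)) (fun x y => by
    show Multiplicative.ofAdd (s.ψ (x * y : G)) = _
    rw [s.ψ_mul _ (hXU' x.2) _ (hXU' y.2)]; rfl)
  have hψs : Function.Surjective ψX := fun v => by
    obtain ⟨x, hx, hxv⟩ := hXs (Multiplicative.toAdd v)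
    exact ⟨⟨x, hx⟩, by show Multiplicative.ofAdd (s.ψ x) = v; rw [hxv]; rfl⟩
  let Y : Subgroup ↥X := (X ⊓ centralizer (A : Set G)).subgroupOf X
  have hYi : Y.index ≤ 2 := by
    have h1 : Nat.card Y = Nat.card (X ⊓ centralizer (A : Set G) : Subgroup G) :=
      Nat.card_congr (subgroupOfEquivOfLe inf_le_left).toEquiv
    have h2 := Y.card_mul_index
    rw [h1] at h2
    have h4 : 0 < Nat.card (X ⊓ centralizer (A : Set G) : Subgroup G) := Nat.card_pos
    by_contra hcon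
    push Not at hcon
    nlinarith
  have h5 := Y.index_map_dvd hψs
  have h6 : (Y.map ψX).index ≤ 2 := (Nat.le_of_dvd (Nat.pos_of_ne_zero Y.index_ne_zero_of_finite) h5).trans hYi
  have h7 := (Y.map ψX).card_mul_index
  have h8 : Nat.card (Y.map ψX) ≤ 4 := by
    refine le_trans ?_ hfl
    refine Nat.card_le_card_of_injective (fun y : Y.map ψX => (⟨Multiplicative.toAdd (y : Multiplicative (Fin 2 → K)), ?_⟩ :
      {v // p5_phi s a v = v})) ?_
    · obtain ⟨x, hx, hxy⟩ := y.2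
      rw [← hxy]
      show p5_phi s a (s.ψ x) = s.ψ x
      rw [← pψ a (hAE ha) x (hXU' x.2)]
      have h9 : (x : G) ∈ X ⊓ centralizer (A : Set G) := mem_subgroupOf.1 hx
      rw [mem_centralizer_iff.1 h9.2 a ha, mul_inv_cancel_right]
    · intro y z h
      have e1 := congrArg Subtype.val h
      exact Subtype.ext e1
  have h9 : Nat.card (Multiplicative (Fin 2 → K)) = 16 := by
    have : Nat.card (Multiplicative (Fin 2 → K)) = Nat.card (Fin 2 → K) := rfl
    rw [this, p6_card2, hq]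
  rw [h9] at h7
  have h10 : Nat.card (Y.map ψX) * (Y.map ψX).index ≤ 4 * 2 := Nat.mul_le_mul h8 h6
  omega

end Cfsg.Agent.Lib.BN
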