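import Cfsg.Agent.Lib.BNP7A

/-!
# S2987, piece P7: the core argument with `semi` as a hypothesis (helper84)
-/

set_option autoImplicit false
set_option linter.unusedSectionVars false

namespace Cfsg.Agent.Lib.BN.P7

open Subgroup Cfsg Cfsg.Agent.Lib.LocBase
open scoped commutatorElement Matrix

universe u
variable {G : Type u} [Group G]
variable {K : Type} [Field K] {E U U₀ : Subgroup G}

theorem Semi.add {s : H56Bau.NatSec K E U U₀} {h : G} {φ : Equiv.Perm (Fin 2 → K)} {σ : RingAut K}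
    (hs : Semi s h φ σ) (hU : h ∈ normalizer (U : Set G)) (v w : Fin 2 → K) : φ (v + w) = φ v + φ w := by
  obtain ⟨a, ha, rfl⟩ := s.ψ_surj v
  obtain ⟨b, hb, rfl⟩ := s.ψ_surj w
  have h1 := (mem_normalizer_iff.mp hU _).mp ha
  have h2 := (mem_normalizer_iff.mp hU _).mp hb
  rw [← s.ψ_mul a ha b hb, ← hs.1 _ (mul_mem ha hb), ← hs.1 a ha, ← hs.1 b hb, ← s.ψ_mul _ h1 _ h2]
  congr 1; group

/-- `v ↦ φ v - v` -/
def dif {s : H56Bau.NatSec K E U U₀} {h : G} {φ : Equiv.Perm (Fin 2 → K)} {σ : RingAut K}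
    (hs : Semi s h φ σ) (hU : h ∈ normalizer (U : Set G)) : (Fin 2 → K) →+ (Fin 2 → K) where
  toFun v := φ v - v
  map_zero' := by
    have h1 := hs.add hU 0 0
    rw [add_zero] at h1
    have h2 : φ 0 = 0 := left_eq_add.mp h1
    rw [h2, sub_zero]
  map_add' v w := by rw [hs.add hU]; abel

theorem dif_apply {s : H56Bau.NatSec K E U U₀} {h : G} {φ : Equiv.Perm (Fin 2 → K)} {σ : RingAut K}
    (hs : Semi s h φ σ) (hU : h ∈ normalizer (U : Set G)) (v : Fin 2 → K) : dif hs hU v = φ v - v := rfl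

/-- `q² ≤ |S| · |Fix φ|` if all differences lie in a finite set `S` -/
theorem card_le_mul [Finite K] {s : H56Bau.NatSec K E U U₀} {h : G} {φ : Equiv.Perm (Fin 2 → K)} {σ : RingAut K}
    (hs : Semi s h φ σ) (hU : h ∈ normalizer (U : Set G)) (S : Set (Fin 2 → K)) (hS : ∀ v, φ v - v ∈ S) :
    Nat.card K * Nat.card K ≤ Nat.card S * Nat.card {v | φ v = v} := by
  have h1 := AddSubgroup.card_mul_index (dif hs hU).ker
  rw [AddSubgroup.index_ker] at h1
  rw [Nat.card_fun, Nat.card_eq_fintype_card (α := Fin 2), Fintype.card_fin, sq] at h1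
  rw [← h1, mul_comm]
  apply Nat.mul_le_mul
  · apply Nat.card_le_card_of_injective (fun x : (dif hs hU).range => (⟨x.1, by
      obtain ⟨y, v, rfl⟩ := x; exact hS v⟩ : S))
    rintro ⟨x, hx⟩ ⟨y, hy⟩ h
    simpa using h
  · apply Nat.card_le_card_of_injective (fun x : (dif hs hU).ker => (⟨x.1, by
      obtain ⟨y, hy⟩ := x
      rw [AddMonoidHom.mem_ker, dif_apply, sub_eq_zero] at hy
      exact hy⟩ : {v | φ v = v}))
    rintro ⟨x, hx⟩ ⟨y, hy⟩ h
    simpa using h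

theorem nonlin_bound [Finite K] {s : H56Bau.NatSec K E U U₀} {h : G} {φ : Equiv.Perm (Fin 2 → K)} {σ : RingAut K}
    (hs : Semi s h φ σ) (hU : h ∈ normalizer (U : Set G)) (hσ : σ ≠ 1) (S : Set (Fin 2 → K)) (hS : ∀ v, φ v - v ∈ S) :
    Nat.card K ≤ Nat.card S := by
  have h1 := card_le_mul hs hU S hS
  have h2 : Nat.card {v | φ v = v} ≤ Nat.card K := by
    apply card_fix_le hs.2 hσ _ (fun v hv => hv)
    intro v hv w hw
    have h3 := hs.add hU (v - w) w
    rw [sub_add_cancel, hv, hw] at h3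
    exact (eq_sub_of_add_eq h3.symm)
  have h3 : 0 < Nat.card K := Nat.card_pos
  have h4 : Nat.card K * Nat.card K ≤ Nat.card S * Nat.card K := h1.trans (Nat.mul_le_mul_left _ h2)
  exact Nat.le_of_mul_le_mul_right h4 h3

theorem aut_eq_one {K : Type} [Field K] {σ : RingAut K} {m : ℕ} (hm : Odd m) (h1 : σ ^ m = 1) (h2 : σ ^ 2 = 1) : σ = 1 := by
  obtain ⟨k, rfl⟩ := hm
  rwa [pow_succ, pow_mul, h2, one_pow, one_mul] at h1

section common

variable [Finite G] {X W : Subgroup G}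
variable (s : H56Bau.NatSec K E U (U ⊓ centralizer (E : Set G)))
include s

theorem psi_inj (hWU : W ≤ U) (hWc : ∀ w ∈ W, w ∈ centralizer (E : Set G) → w = 1) {w w' : G} (hw : w ∈ W) (hw' : w' ∈ W)
    (h : s.ψ w = s.ψ w') : w = w' := by
  have h1 := (s.ψ_eq (hWU hw) (hWU hw')).mp h
  have h2 := hWc _ (mul_mem (inv_mem hw) hw') h1.2
  exact (inv_mul_eq_one.mp h2)

theorem psi_X (hXn : normalizer (E : Set G) ≤ normalizer (X : Set G))
    (hXU : X ⊔ (U ⊓ centralizer (E : Set G)) = U) (v : Fin 2 → K) : ∃ x ∈ X, s.ψ x = v := by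
  obtain ⟨u, hu, rfl⟩ := s.ψ_surj v
  have h0 : U ⊓ centralizer (E : Set G) ≤ normalizer (X : Set G) :=
    (inf_le_right.trans (Subgroup.centralizer_le_normalizer _)).trans hXn
  have h1 : u ∈ ((X ⊔ (U ⊓ centralizer (E : Set G)) : Subgroup G) : Set G) := by rw [hXU]; exact hu
  rw [Subgroup.coe_mul_of_right_le_normalizer_left _ _ h0] at h1
  obtain ⟨x, hx, y, hy, rfl⟩ := h1
  have hxU : x ∈ U := by rw [← hXU]; exact mem_sup_left hx
  refine ⟨x, hx, ?_⟩
  change s.ψ x = s.ψ (x * y)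
  rw [s.ψ_mul x hxU y hy.1, s.ψ_zero hy, add_zero]

/-- the image of `W` -/
def im (W : Subgroup G) : Set (Fin 2 → K) := s.ψ '' (W : Set G)

theorem card_im_le : Nat.card (im s W) ≤ Nat.card W := by
  apply Nat.card_image_le (Set.toFinite _)

theorem diff_mem (hXU : X ≤ U) (hX : ∀ v : Fin 2 → K, ∃ x ∈ X, s.ψ x = v) {h : G} {φ : Equiv.Perm (Fin 2 → K)} {σ : RingAut K}
    (hs : Semi s h φ σ) (hU : h ∈ normalizer (U : Set G)) (hc : ∀ x ∈ X, ⁅h, x⁆ ∈ W) (v : Fin 2 → K) : φ v - v ∈ im s W := by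
  obtain ⟨x, hx, rfl⟩ := hX v
  refine ⟨⁅h, x⁆, hc x hx, ?_⟩
  have h1 := (mem_normalizer_iff.mp hU _).mp (hXU hx)
  rw [commutatorElement_def, s.ψ_mul _ h1 _ (inv_mem (hXU hx)), s.ψ_inv (hXU hx), hs.1 _ (hXU hx), sub_eq_add_neg]

end common

/-- P7 with `semi` as a hypothesis -/
theorem d7_three_core [Finite G] [Fintype K] {n : ℕ} (hK : Fintype.card K = 3 ^ n) (h3 : 3 < Fintype.card K)
    {X W J : Subgroup G} (s : H56Bau.NatSec K E U (U ⊓ centralizer (E : Set G)))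
    (hUn : normalizer (E : Set G) ≤ normalizer (U : Set G)) (hXn : normalizer (E : Set G) ≤ normalizer (X : Set G))
    (hXU : X ⊔ (U ⊓ centralizer (E : Set G)) = U)
    (hWX : W ≤ X) (hW : Nat.card ↥W = 9) (hWc : ∀ w ∈ W, w ∈ centralizer (E : Set G) → w = 1)
    {b : G} (hbE : b ∈ normalizer (E : Set G)) (hb4 : b ^ 4 = 1)
    (hinv : ∀ w ∈ W, (b * b) * w * (b * b)⁻¹ = w⁻¹) (hcomm : ∀ x ∈ X, ⁅b, x⁆ ∈ W)
    (hJ : IsPGroup 3 J) (hJE : J ≤ normalizer (E : Set G)) (hJW : J ≤ normalizer (W : Set G))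
    (hsemi : ∀ h ∈ normalizer (E : Set G), ∃ (φ : Equiv.Perm (Fin 2 → K)) (σ : RingAut K), Semi s h φ σ) :
    J ≤ centralizer (W : Set G) := by
  have hXle : X ≤ U := by rw [← hXU]; exact le_sup_left
  have hWU : W ≤ U := hWX.trans hXle
  have hX := psi_X s hXn hXU
  have hcK : Nat.card K = 3 ^ n := by rw [Nat.card_eq_fintype_card]; exact hK
  have hcK3 : 3 < Nat.card K := by rw [Nat.card_eq_fintype_card]; exact h3
  have hcK9 : 9 ≤ Nat.card K := by
    rw [hcK] at hcK3 ⊢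
    have : 2 ≤ n := by
      by_contra hcon
      have : n = 0 ∨ n = 1 := by omega
      rcases this with rfl | rfl <;> norm_num at hcK3
    calc 9 = 3 ^ 2 := by norm_num
      _ ≤ 3 ^ n := Nat.pow_le_pow_right (by norm_num) this
  have h30 : (3 : K) = 0 := by
    have h1 : ((3 ^ n : ℕ) : K) = 0 := by rw [← hcK, Nat.card_eq_fintype_card]; exact Nat.cast_card_eq_zero K
    rw [Nat.cast_pow] at h1
    exact_mod_cast pow_eq_zero_iff (n := n) (by rintro rfl; rw [hcK] at hcK3; norm_num at hcK3) |>.mp h1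
  have hchar : CharP K 3 := (CharP.charP_iff_prime_eq_zero Nat.prime_three).mpr (by exact_mod_cast h30)
  obtain ⟨φb, σb, hb⟩ := hsemi b hbE
  have hbU := hUn hbE
  -- z = b * b
  have hz : Semi s (b * b) (φb * φb) (σb * σb) := hb.mul hb hbU
  have hzU : b * b ∈ normalizer (U : Set G) := mul_mem hbU hbU
  set φ := φb * φb with hφ
  set σ := σb * σb with hσ
  have hzc : ∀ x ∈ X, ⁅b * b, x⁆ ∈ W := by
    intro x hx
    have h1 := hcomm x hx
    have h2 := hcomm _ (hWX h1)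
    have e1 : ⁅b * b, x⁆ = ⁅b, ⁅b, x⁆⁆ * ⁅b, x⁆ * ⁅b, x⁆ := by
      simp only [commutatorElement_def]; group
    rw [e1]
    exact mul_mem (mul_mem h2 h1) h1
  have hdm := diff_mem s (W := W) hXle hX hz hzU hzc
  have hcim : Nat.card (im s W) ≤ 9 := by rw [← hW]; exact card_im_le s
  -- σ = 1
  have hσ1 : σ = 1 := by
    by_contra hne
    have h1 := nonlin_bound hz hzU hne (im s W) hdm
    have h2 : Nat.card K = 9 := le_antisymm (h1.trans hcim) hcK9
    exact hne (by rw [hσ, ← pow_two]; exact aut_nine h2 σb)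
  have hlin : ∀ (c : K) (v : Fin 2 → K), φ (c • v) = c • φ v := by
    intro c v
    rw [hz.2, hσ1]; rfl
  have hneg : ∀ w ∈ W, φ (s.ψ w) = - s.ψ w := by
    intro w hw
    rw [← hz.1 w (hWU hw), hinv w hw, s.ψ_inv (hWU hw)]
  -- W ≠ 1
  obtain ⟨w0, hw0, hw01⟩ : ∃ w ∈ W, w ≠ 1 := by
    by_contra hcon
    push Not at hcon
    have : W = ⊥ := (eq_bot_iff_forall _).mpr hcon
    rw [this, Subgroup.card_bot] at hW
    omega
  have hψ0 : s.ψ w0 ≠ 0 := by
    intro h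
    exact hw01 (hWc w0 hw0 ((s.ψ_ker w0 (hWU hw0)).mp h).2)
  have hsm : ∀ c : K, c • s.ψ w0 ∈ im s W := by
    intro c
    have h1 := hdm (c • s.ψ w0)
    rw [hlin, hneg w0 hw0] at h1
    have e1 : c • -s.ψ w0 - c • s.ψ w0 = c • s.ψ w0 := by
      have h2 : (3 : K) • (c • s.ψ w0) = 0 := by rw [h30, zero_smul]
      have h4 : (3 : K) • (c • s.ψ w0) = c • s.ψ w0 + c • s.ψ w0 + c • s.ψ w0 := by
        rw [← one_smul K (c • s.ψ w0), ← add_smul, ← add_smul, smul_smul]; norm_num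
      rw [h4] at h2
      rw [smul_neg]
      have h6 := eq_neg_of_add_eq_zero_right h2
      have h7 : -(c • s.ψ w0) - c • s.ψ w0 = -(c • s.ψ w0 + c • s.ψ w0) := by abel
      rw [h7]; exact h6.symm
    rwa [e1] at h1
  have hinj : Function.Injective (fun c : K => (⟨c • s.ψ w0, hsm c⟩ : im s W)) := by
    intro c d h
    have h1 : c • s.ψ w0 = d • s.ψ w0 := congrArg Subtype.val h
    exact smul_left_injective K hψ0 h1
  have : Finite (im s W) := (Set.toFinite _).subset (Set.Subset.refl _) |>.to_subtype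
  have hcard9 : Nat.card K = 9 := le_antisymm ((Nat.card_le_card_of_injective _ hinj).trans hcim) hcK9
  have hsurj : ∀ w ∈ W, ∃ c : K, c • s.ψ w0 = s.ψ w := by
    intro w hw
    have h1 : Function.Bijective (fun c : K => (⟨c • s.ψ w0, hsm c⟩ : im s W)) :=
      hinj.bijective_of_nat_card_le (by rw [hcard9]; exact hcim)
    obtain ⟨c, hc⟩ := h1.2 ⟨s.ψ w, ⟨w, hw, rfl⟩⟩
    exact ⟨c, congrArg Subtype.val hc⟩
  -- the elements of J
  intro j hj
  rw [mem_centralizer_iff]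
  intro w hw
  obtain ⟨φj, σj, hjs⟩ := hsemi j (hJE hj)
  have hjU := hUn (hJE hj)
  obtain ⟨k, hk⟩ : ∃ k : ℕ, j ^ 3 ^ k = 1 := by
    obtain ⟨k, hk⟩ := hJ ⟨j, hj⟩
    exact ⟨k, by simpa [Subtype.ext_iff] using hk⟩
  obtain ⟨hφk, hσk⟩ := hjs.pow_eq_one hjU hk
  have hσj : σj = 1 := aut_eq_one (m := 3 ^ k) (Odd.pow (by decide)) hσk (aut_nine hcard9 σj)
  have hjlin : ∀ (c : K) (v : Fin 2 → K), φj (c • v) = c • φj v := by
    intro c v
    rw [hjs.2, hσj]; rfl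
  have hjw : ∀ w ∈ W, j * w * j⁻¹ ∈ W := fun w hw => (mem_normalizer_iff.mp (hJW hj) _).mp hw
  obtain ⟨c, hc⟩ := hsurj _ (hjw w0 hw0)
  rw [hjs.1 w0 (hWU hw0)] at hc
  have hpow : ∀ m : ℕ, (φj ^ m) (s.ψ w0) = c ^ m • s.ψ w0 := by
    intro m
    induction m with
    | zero => rw [pow_zero, pow_zero, one_smul]; rfl
    | succ m ih =>
      rw [pow_succ']
      change φj ((φj ^ m) (s.ψ w0)) = _
      rw [ih, hjlin, ← hc, smul_smul, pow_succ]
  have hck : c ^ 3 ^ k = 1 := by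
    have h1 := hpow (3 ^ k)
    rw [hφk] at h1
    change s.ψ w0 = _ at h1
    have h2 : (c ^ 3 ^ k - 1) • s.ψ w0 = 0 := by rw [sub_smul, one_smul, ← h1, sub_self]
    rcases smul_eq_zero.mp h2 with h4 | h4
    · exact sub_eq_zero.mp h4
    · exact absurd h4 hψ0
  have hc1 : c = 1 := by
    have h9 : (c - 1) ^ 3 ^ k = 0 := by
      rw [sub_pow_char_pow, hck, one_pow, sub_self]
    exact sub_eq_zero.mp (pow_eq_zero_iff (by positivity) |>.mp h9)
  rw [hc1, one_smul] at hc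
  have hfix : φj (s.ψ w) = s.ψ w := by
    obtain ⟨d, hd⟩ := hsurj w hw
    rw [← hd, hjlin, ← hc]
  have h5 : w = j * w * j⁻¹ := by
    apply psi_inj s hWU hWc hw (hjw w hw)
    rw [hjs.1 w (hWU hw), hfix]
  calc w * j = (j * w * j⁻¹) * j := by rw [← h5]
    _ = j * w := by group

end Cfsg.Agent.Lib.BN.P7
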