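import Cfsg.Agent.Lib.BBPair13
import Cfsg.Agent.Lib.H56BauO
import Cfsg.Agent.Lib.BNP5
import Cfsg.Agent.Lib.BNP7B

/-!
# S2987, piece P7 (helper84)
-/

set_option autoImplicit false
set_option linter.unusedSectionVars false

namespace Cfsg.Agent.Lib.BN

open Subgroup Cfsg Cfsg.Agent.Lib.LocBase Cfsg.Agent.Lib.PReduced Cfsg.Agent.Lib.BBlock
open scoped commutatorElement Matrix

universe u
variable {G : Type u} [Group G] [Finite G] {p : ℕ} [hp : Fact p.Prime]

theorem d7_three {K : Type} [Field K] [Fintype K] {n : ℕ} (hK : Fintype.card K = 3 ^ n) (h3 : 3 < Fintype.card K)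
    {E U X W J : Subgroup G} (s : H56Bau.NatSec K E U (U ⊓ centralizer (E : Set G)))
    (hUn : normalizer (E : Set G) ≤ normalizer (U : Set G)) (hXn : normalizer (E : Set G) ≤ normalizer (X : Set G))
    (hXU : X ⊔ (U ⊓ centralizer (E : Set G)) = U)
    (hWX : W ≤ X) (hW : Nat.card ↥W = 9) (hWc : ∀ w ∈ W, w ∈ centralizer (E : Set G) → w = 1)
    {b : G} (hbE : b ∈ normalizer (E : Set G)) (hb4 : b ^ 4 = 1)
    (hinv : ∀ w ∈ W, (b * b) * w * (b * b)⁻¹ = w⁻¹) (hcomm : ∀ x ∈ X, ⁅b, x⁆ ∈ W)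
    (hJ : IsPGroup 3 J) (hJE : J ≤ normalizer (E : Set G)) (hJW : J ≤ normalizer (W : Set G)) :
    J ≤ centralizer (W : Set G) := by
  refine P7.d7_three_core hK h3 s hUn hXn hXU hWX hW hWc hbE hb4 hinv hcomm hJ hJE hJW ?_
  intro h hh
  have hU := hUn hh
  have hZ : h ∈ normalizer (centralizer (E : Set G) : Set G) := by
    rw [mem_normalizer_iff]
    have key : ∀ g ∈ normalizer (E : Set G), ∀ c ∈ centralizer (E : Set G), g * c * g⁻¹ ∈ centralizer (E : Set G) := by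
      intro g hg c hc
      rw [mem_centralizer_iff] at hc ⊢
      intro e he
      have h1 : g⁻¹ * e * g ∈ (E : Set G) := (mem_normalizer_iff''.mp hg e).mp he
      have h2 := hc _ h1
      calc e * (g * c * g⁻¹) = g * ((g⁻¹ * e * g) * c) * g⁻¹ := by group
        _ = g * (c * (g⁻¹ * e * g)) * g⁻¹ := by rw [h2]
        _ = g * c * g⁻¹ * e := by group
    intro c
    refine ⟨key h hh c, fun hc => ?_⟩
    have := key h⁻¹ (inv_mem hh) _ hc
    have e1 : h⁻¹ * (h * c * h⁻¹) * h⁻¹⁻¹ = c := by group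
    rwa [e1] at this
  have hU0 : h ∈ normalizer ((U ⊓ centralizer (E : Set G) : Subgroup G) : Set G) := by
    rw [mem_normalizer_iff]
    intro c
    rw [mem_inf, mem_inf, ← mem_normalizer_iff.mp hU c, ← mem_normalizer_iff.mp hZ c]
  obtain ⟨φ, σ, h1, h2⟩ := semi h3 s hh hU hU0
  exact ⟨φ.toEquiv, σ, h1, h2⟩

end Cfsg.Agent.Lib.BN
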