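import Cfsg.Agent.Lib.BBPair13
import Cfsg.Agent.Lib.H56BauO

/-!
# Piece P9 of S2987 (helper49)
-/

set_option autoImplicit false
set_option linter.unusedSectionVars false

namespace Cfsg.Agent.Lib.BN

open Subgroup Cfsg Cfsg.Agent.Lib.LocBase Cfsg.Agent.Lib.PReduced Cfsg.Agent.Lib.BBlock
open scoped commutatorElement Matrix

universe u
variable {G : Type u} [Group G] [Finite G] {p : ℕ} [hp : Fact p.Prime]

theorem P9.set_eq {W : Subgroup G} (hW : Nat.card W = 4) {s a : G} (hs : s ∈ normalizer (W : Set G)) (hs3 : s ^ 3 = 1)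
    (hsf : ∀ w ∈ W, s * w = w * s → w = 1) (ha : a ∈ W) (ha1 : a ≠ 1) :
    ∀ w ∈ W, w = 1 ∨ w = a ∨ w = s * a * s⁻¹ ∨ w = s⁻¹ * a * s := by
  have h1 : s * a * s⁻¹ ∈ W := (mem_normalizer_iff.mp hs _).mp ha
  have h2 : s⁻¹ * a * s ∈ W := conj_mem_of_le_normalizer' (K := normalizer (W : Set G)) le_rfl hs ha
  have n1 : s * a * s⁻¹ ≠ 1 := fun h => ha1 (conj_eq_one_iff.mp h)
  have n2 : s⁻¹ * a * s ≠ 1 := fun h => ha1 (by
    have : s * (s⁻¹ * a * s) * s⁻¹ = 1 := by rw [h]; group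
    have e1 : s * (s⁻¹ * a * s) * s⁻¹ = a := by group
    rwa [e1] at this)
  have n3 : s * a * s⁻¹ ≠ a := fun h => ha1 (hsf a ha (by rw [mul_inv_eq_iff_eq_mul] at h; exact h))
  have n4 : s⁻¹ * a * s ≠ a := fun h => ha1 (hsf a ha (by
    conv_lhs => rw [← h]
    group))
  have n5 : s * a * s⁻¹ ≠ s⁻¹ * a * s := by
    intro h
    apply n4
    have e1 : s⁻¹ = s ^ 2 := by
      rw [inv_eq_iff_mul_eq_one, ← pow_succ', hs3]
    have h3 : s ^ 2 * a * (s ^ 2)⁻¹ = a := by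
      calc s ^ 2 * a * (s ^ 2)⁻¹ = s * (s * a * s⁻¹) * s⁻¹ := by rw [pow_two]; group
        _ = s * (s⁻¹ * a * s) * s⁻¹ := by rw [h]
        _ = a := by group
    rw [← e1, inv_inv] at h3
    exact h3
  have hsub : ({1, a, s * a * s⁻¹, s⁻¹ * a * s} : Set G) ⊆ W := by
    rintro x (rfl | rfl | rfl | rfl)
    · exact W.one_mem
    · exact ha
    · exact h1
    · exact h2
  have hcard : ({1, a, s * a * s⁻¹, s⁻¹ * a * s} : Set G).ncard = 4 := by
    rw [Set.ncard_insert_of_notMem, Set.ncard_insert_of_notMem, Set.ncard_pair n5]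
    · simp only [Set.mem_insert_iff, Set.mem_singleton_iff, not_or]
      exact ⟨n3.symm, n4.symm⟩
    · simp only [Set.mem_insert_iff, Set.mem_singleton_iff, not_or]
      exact ⟨ha1.symm, n1.symm, n2.symm⟩
  have hWc : (W : Set G).ncard = 4 := hW
  have heq := Set.eq_of_subset_of_ncard_le hsub (by rw [hcard, hWc]) (Set.toFinite _)
  intro w hw
  have h5 : w ∈ ({1, a, s * a * s⁻¹, s⁻¹ * a * s} : Set G) := by rw [heq]; exact hw
  exact h5

theorem P9.aux {W : Subgroup G} (hW : Nat.card W = 4) {s x a : G} (hs : s ∈ normalizer (W : Set G)) (hs3 : s ^ 3 = 1)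
    (hsf : ∀ w ∈ W, s * w = w * s → w = 1) (hx : x ∈ normalizer (W : Set G)) (ho : (orderOf x).Coprime 2)
    (ha : a ∈ W) (ha1 : a ≠ 1) (hxa : x * a * x⁻¹ = s * a * s⁻¹) : s⁻¹ * x ∈ centralizer (W : Set G) := by
  have hset := P9.set_eq hW hs hs3 hsf ha ha1
  set c := s⁻¹ * x with hc
  have hcN : c ∈ normalizer (W : Set G) := mul_mem (inv_mem hs) hx
  have hca : c * a * c⁻¹ = a := by
    calc c * a * c⁻¹ = s⁻¹ * (x * a * x⁻¹) * s := by rw [hc]; group
      _ = s⁻¹ * (s * a * s⁻¹) * s := by rw [hxa]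
      _ = a := by group
  have h1 : s * a * s⁻¹ ∈ W := (mem_normalizer_iff.mp hs _).mp ha
  have h2 : s⁻¹ * a * s ∈ W := conj_mem_of_le_normalizer' (K := normalizer (W : Set G)) le_rfl hs ha
  have n1 : s * a * s⁻¹ ≠ 1 := fun h => ha1 (conj_eq_one_iff.mp h)
  have n3 : s * a * s⁻¹ ≠ a := fun h => ha1 (hsf a ha (by rw [mul_inv_eq_iff_eq_mul] at h; exact h))
  have n4 : s⁻¹ * a * s ≠ a := fun h => ha1 (hsf a ha (by
    conv_lhs => rw [← h]
    group))
  have n2 : s⁻¹ * a * s ≠ 1 := fun h => ha1 (by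
    have : s * (s⁻¹ * a * s) * s⁻¹ = 1 := by rw [h]; group
    have e1 : s * (s⁻¹ * a * s) * s⁻¹ = a := by group
    rwa [e1] at this)
  have hinj : ∀ u v : G, c * u * c⁻¹ = c * v * c⁻¹ → u = v := fun u v h => mul_left_cancel (mul_right_cancel h)
  have hc1 : c * (s * a * s⁻¹) * c⁻¹ ∈ W := (mem_normalizer_iff.mp hcN _).mp h1
  have hc2 : c * (s⁻¹ * a * s) * c⁻¹ ∈ W := (mem_normalizer_iff.mp hcN _).mp h2
  have hcc : c * 1 * c⁻¹ = 1 := by group
  rcases hset _ hc1 with h | h | h | h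
  · exact absurd (hinj _ _ (h.trans hcc.symm)) n1
  · exact absurd (hinj _ _ (h.trans hca.symm)) n3
  · -- `c` fixes all
    have h5 : c * (s⁻¹ * a * s) * c⁻¹ = s⁻¹ * a * s := by
      rcases hset _ hc2 with h' | h' | h' | h'
      · exact absurd (hinj _ _ (h'.trans hcc.symm)) n2
      · exact absurd (hinj _ _ (h'.trans hca.symm)) n4
      · have h6 := hinj _ _ (h'.trans h.symm)
        rw [h6] at h'
        rw [h6]; exact h'
      · exact h'
    rw [mem_centralizer_iff]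
    intro w hw
    have h7 : c * w * c⁻¹ = w := by
      rcases hset w hw with rfl | rfl | rfl | rfl
      · exact hcc
      · exact hca
      · exact h
      · exact h5
    rw [mul_inv_eq_iff_eq_mul] at h7
    exact h7.symm
  · exfalso
    have e2 : x * (x * a * x⁻¹) * x⁻¹ = a := by
      calc x * (x * a * x⁻¹) * x⁻¹ = s * (c * (x * a * x⁻¹) * c⁻¹) * s⁻¹ := by rw [hc]; group
        _ = s * (c * (s * a * s⁻¹) * c⁻¹) * s⁻¹ := by rw [hxa]
        _ = s * (s⁻¹ * a * s) * s⁻¹ := by rw [h]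
        _ = a := by group
    have h6 : x ^ 2 ^ 1 ∈ centralizer ({a} : Set G) := by
      rw [mem_centralizer_iff]
      rintro y rfl
      have h7 : x * x * y = y * (x * x) := by
        calc x * x * y = (x * (x * y * x⁻¹) * x⁻¹) * (x * x) := by group
          _ = y * (x * x) := by rw [e2]
      rw [pow_one, pow_two]
      exact h7.symm
    have h7 := mem_of_coprime_of_pow_mem ho h6
    have h8 : a * x = x * a := mem_centralizer_iff.mp h7 a rfl
    apply n3
    rw [← hxa, ← h8]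
    group

theorem four_inner {W : Subgroup G} (hW : Nat.card W = 4) {t x : G} (ht : t ∈ normalizer (W : Set G)) (ht3 : t ^ 3 = 1)
    (htf : ∀ w ∈ W, t * w = w * t → w = 1) (hx : x ∈ normalizer (W : Set G)) (ho : (orderOf x).Coprime 2) :
    ∃ e ∈ zpowers t, e⁻¹ * x ∈ centralizer (W : Set G) := by
  obtain ⟨a, ha, ha1⟩ : ∃ a ∈ W, a ≠ 1 := by
    by_contra hcon
    push Not at hcon
    have h1 : W = ⊥ := by rw [eq_bot_iff]; exact fun x hx => mem_bot.mpr (hcon x hx)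
    rw [h1, Subgroup.card_bot] at hW
    omega
  have hset := P9.set_eq hW ht ht3 htf ha ha1
  have hxa : x * a * x⁻¹ ∈ W := (mem_normalizer_iff.mp hx _).mp ha
  rcases hset _ hxa with h | h | h | h
  · exact absurd (conj_eq_one_iff.mp h) ha1
  · refine ⟨1, one_mem _, ?_⟩
    rw [inv_one, one_mul, mem_centralizer_iff]
    intro w hw
    rw [mul_inv_eq_iff_eq_mul] at h
    exact (BBPair.fix_of_four hW hx ho ha ha1 h w hw).symm
  · exact ⟨t, mem_zpowers t, P9.aux hW ht ht3 htf hx ho ha ha1 h⟩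
  · refine ⟨t⁻¹, inv_mem (mem_zpowers t), P9.aux hW (inv_mem ht) (by rw [inv_pow, ht3, inv_one]) ?_ hx ho ha ha1 ?_⟩
    · intro w hw hc
      apply htf w hw
      calc t * w = t * (w * t⁻¹) * t := by group
        _ = t * (t⁻¹ * w) * t := by rw [hc]
        _ = w * t := by group
    · rw [inv_inv]; exact h

theorem perfect_of {F : Subgroup G} (hres : pRes p F = F) (hq : IsQuasisimple (↥F ⧸ pCore p ↥F)) : ⁅F, F⁆ = F := by
  have hle : ⁅F, F⁆ ≤ F := commutator_le_left_of_le le_normalizer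
  apply le_antisymm hle
  have hn : pCoreOf p F ≤ normalizer ((⁅F, F⁆ : Subgroup G) : Set G) :=
    (LocBase.pCoreOf_le F).trans (le_normalizer_commutator le_normalizer le_normalizer)
  have hsup : F ≤ ⁅F, F⁆ ⊔ pCoreOf p F := by
    intro x hx
    have h1 : commutator (↥F ⧸ pCore p ↥F) = ⊤ := hq.1.1
    have h2 : QuotientGroup.mk' (pCore p ↥F) ⟨x, hx⟩ ∈ commutator (↥F ⧸ pCore p ↥F) := by rw [h1]; exact mem_top _
    have h3 : (commutator ↥F).map (QuotientGroup.mk' (pCore p ↥F)) = commutator (↥F ⧸ pCore p ↥F) := by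
      rw [commutator_def, commutator_def, Subgroup.map_commutator, ← MonoidHom.range_eq_map,
        MonoidHom.range_eq_top.mpr (QuotientGroup.mk'_surjective _)]
    rw [← h3] at h2
    obtain ⟨y, hy, hyx⟩ := h2
    have h4 : y⁻¹ * ⟨x, hx⟩ ∈ pCore p ↥F := by
      rw [← QuotientGroup.eq]
      exact hyx
    have h5 : (y : G) ∈ ⁅F, F⁆ := by
      have h6 : (y : G) ∈ (commutator ↥F).map F.subtype := ⟨y, hy, rfl⟩
      rw [commutator_def, Subgroup.map_commutator, ← MonoidHom.range_eq_map, Subgroup.range_subtype] at h6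
      exact h6
    have h6 : ((y⁻¹ * ⟨x, hx⟩ : ↥F) : G) ∈ pCoreOf p F := ⟨_, h4, rfl⟩
    have h7 : x = (y : G) * ((y⁻¹ * ⟨x, hx⟩ : ↥F) : G) := by
      rw [Subgroup.coe_mul, Subgroup.coe_inv, mul_inv_cancel_left]
    rw [h7]
    exact mul_mem_sup h5 h6
  calc F = pRes p F := hres.symm
    _ ≤ pRes p (⁅F, F⁆ ⊔ pCoreOf p F) := pRes_mono hsup
    _ ≤ ⁅F, F⁆ := pRes_sup_le (isPGroup_pCoreOf p F) hn

end Cfsg.Agent.Lib.BN
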