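import Cfsg.Agent.Lib.BN6
import Cfsg.Agent.Lib.BNP1
import Cfsg.Agent.Lib.BNP4
import Cfsg.Agent.Lib.BNP6
import Cfsg.Agent.Lib.BNP7
import Cfsg.Agent.Lib.BNP9

/-!
# S2987: the statement about blocks F (helper78)
-/

set_option autoImplicit false
set_option linter.unusedSectionVars false

namespace Cfsg.Agent.Lib.BN

open Subgroup Cfsg Cfsg.Agent.Lib.LocBase Cfsg.Agent.Lib.PReduced Cfsg.Agent.Lib.BBlock Cfsg.Agent.Lib.BBPair
open scoped commutatorElement

universe u
variable {G : Type u} [Group G] [Finite G] {p : ℕ} [hp : Fact p.Prime]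

theorem ab_of_ne (hp3 : p ≠ 3) {T E : Subgroup G} (h : IsBaumannBlock p T E) : pCoreOf p E = OZ p (pCoreOf p E) := by
  obtain ⟨h1, h2, h3, h4, h5⟩ := h
  rcases h5 with ⟨F, hF, hFin, n, hn, -, hact, hq⟩ | ⟨-, m, -, hact, hq⟩
  · rcases hq with hq | ⟨h, -⟩
    · exact hq
    · exact absurd h hp3
  · exact hq

theorem NB.WE_eq {E : Subgroup G} (h : NB p E) (ab : pCoreOf p E = OZ p (pCoreOf p E)) : WE p E = pCoreOf p E := by
  change ⁅OZ p (pCoreOf p E), E⁆ = _
  rw [← ab]; exact h.qe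

/-- the data of a type C block with a Sylow 3-subgroup -/
theorem TyC.data {E S : Subgroup G} (h : NB 2 E) (t : TyC E) (hS : IsSyl 3 S E) :
    pCoreOf 2 E ⊔ S = E ∧ Nat.card ↥(WE 2 E) = 4 ∧ ∃ f ∈ E, S = zpowers f ∧ f ^ 3 = 1 ∧
      ∀ w ∈ WE 2 E, f * w = w * f → w = 1 := by
  have hcard : Nat.card E = 3 ^ 1 * Nat.card ↥(pCoreOf 2 E) := by rw [t.card]; norm_num
  have gen := gen_nb (p := 2) (r := 3) (by norm_num) hS hcard
  have hSc := syl_card (p := 2) (r := 3) (by norm_num) hS hcard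
  rw [pow_one] at hSc
  have hcyc : IsCyclic ↥S := isCyclic_of_prime_card (p := 3) hSc
  obtain ⟨⟨f, hf⟩, hfg⟩ := hcyc.exists_generator
  have hSf : S = zpowers f := by
    apply le_antisymm
    · intro x hx
      obtain ⟨k, hk⟩ := mem_zpowers_iff.mp (hfg ⟨x, hx⟩)
      rw [mem_zpowers_iff]
      exact ⟨k, congrArg Subtype.val hk⟩
    · rw [zpowers_le]; exact hf
  refine ⟨gen, cardW_nb (p := 2) (r := 3) (by norm_num) h hS.pgroup gen t.cardO, f, hS.le hf, hSf, ?_, ?_⟩
  · have := pow_card_eq_one' (G := ↥S) (x := ⟨f, hf⟩)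
    rw [hSc] at this
    exact congrArg Subtype.val this
  · intro w hw hc
    apply W_inf_nb (p := 2) (r := 3) (by norm_num) hS.pgroup gen hw
    rw [hSf, mem_centralizer_iff]
    intro x hx
    obtain ⟨k, rfl⟩ := mem_zpowers_iff.mp hx
    exact ((show Commute f w from hc).zpow_left k).eq

theorem inner_of_odd {E F W : Subgroup G} (hres : pRes p F = F)
    (h : ∀ x ∈ F, (orderOf x).Coprime p → ∃ e ∈ E, e⁻¹ * x ∈ centralizer (W : Set G)) :
    F ≤ E ⊔ centralizer (W : Set G) := by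
  rw [← hres, pRes_le_iff]
  intro x hx ho
  obtain ⟨e, he, hc⟩ := h x hx ho
  have e1 : x = e * (e⁻¹ * x) := by group
  rw [e1]
  exact mul_mem ((le_sup_left : E ≤ E ⊔ centralizer (W : Set G)) he)
    ((le_sup_right : centralizer (W : Set G) ≤ E ⊔ centralizer (W : Set G)) hc)

theorem TyC.inner {E F : Subgroup G} (h : NB 2 E) (tE : TyC E) (hFE : F ≤ normalizer (E : Set G)) (hres : pRes 2 F = F) :
    F ≤ E ⊔ centralizer (WE 2 E : Set G) := by
  obtain ⟨S, hS⟩ := exists_isSyl 3 E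
  obtain ⟨gen, cW, f, hfE, hSf, hf3, hfix⟩ := tE.data h hS
  apply inner_of_odd hres
  intro x hx ho
  obtain ⟨e, he, hc⟩ := four_inner cW (h.WE_norm hfE) hf3 hfix (WE_char hFE hx) ho
  exact ⟨e, (zpowers_le.mpr hfE) he, hc⟩

theorem TyB.inner {E F : Subgroup G} {m : ℕ} (h : NB 2 E) (tE : TyB E m) (hFE : F ≤ normalizer (E : Set G))
    (hres : pRes 2 F = F) : F ≤ E ⊔ centralizer (WE 2 E : Set G) := by
  apply inner_of_odd hres
  intro x hx ho
  have hZ := (alt_Z tE.two tE.ab h.qe tE.iso tE.acts).1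
  obtain ⟨e, he, hc⟩ := alt_inner tE.two tE.ab hZ tE.acts (hFE hx) (Nat.coprime_two_right.mp ho)
  refine ⟨e, he, ?_⟩
  rw [h.WE_eq tE.ab]
  exact hc

/-- the common facts in the case `W_F ≤ W_E` -/
theorem WF_inter {E F : Subgroup G} (hkE : KB p E) (k : NB p F) (hFE : F ≤ normalizer (E : Set G))
    (hW : WE p F ≤ WE p E) (hc1 : ∀ w ∈ WE p F, w ∈ centralizer (F : Set G) → w = 1) :
    ∀ w ∈ WE p F, w ∈ centralizer (E : Set G) → w = 1 := by
  intro w hw hwE
  have hn : F ≤ normalizer ((WE p F ⊓ centralizer (E : Set G) : Subgroup G) : Set G) :=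
    le_normalizer_inf k.WE_norm (le_normalizer_centralizer hFE)
  rcases k.WE_irr inf_le_left hn with h1 | h1
  · exact hc1 w hw (h1 ⟨hw, hwE⟩)
  · exfalso
    have h2 : F ≤ centralizer (WE p E : Set G) := by
      intro x hx
      apply hkE.bar (hFE hx)
      intro v hv
      have h3 : ⁅v, x⁆ ∈ WE p F := by
        rw [← k.comm_V]
        exact commutator_mem_commutator (hkE.nb.WE_le_V hv) hx
      rw [← h1] at h3
      rw [← commutatorElement_inv]
      exact inv_mem h3.2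
    apply k.WE_not
    rw [Subgroup.le_centralizer_iff]
    exact h2.trans (centralizer_le hW)

/-- type A against type C -/
theorem TyA.not_C {T E F : Subgroup G} {K : Type} [Field K] [Fintype K] {n : ℕ} (hT : IsSyl 2 T ⊤)
    (hG : centralizer (pCore 2 G : Set G) ≤ pCore 2 G) (hE : IsBaumannBlock 2 T E) (hF : IsBaumannBlock 2 T F)
    (tE : TyA 2 E K n) (tF : TyC F) (hFE : F ≤ normalizer (E : Set G)) (hW : WE 2 F ≤ WE 2 E) : False := by
  have hkE := kb_of hG hT hE
  have h := hkE.nb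
  have k := nb_of hG hT hF
  have bE := blk_of hT hE
  have bF := blk_of hT hF
  obtain ⟨s⟩ := H56Bau.natSec_of tE.acts
  obtain ⟨S, hS⟩ := exists_isSyl 3 F
  obtain ⟨gen, cW, f, hfF, hSf, hf3, hfix⟩ := tF.data k hS
  have hNO : normalizer (E : Set G) ≤ normalizer (OZ 2 (pCoreOf 2 E) : Set G) :=
    (normalizer_le_normalizer_pCoreOf 2 _).trans (normalizer_le_normalizer_OZ 2 _)
  have hVT : OZ 2 (pCore 2 G) ≤ T := (OZ_le _).trans (Blk.pCore_le_syl hT)
  apply bF.J_act hG
  change ⁅WE 2 F, _⁆ = ⊥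
  rw [commutator_eq_bot_iff_le_centralizer, Subgroup.le_centralizer_iff, ThompsonJ.thompsonSubgroupOf_eq]
  apply sSup_le
  intro A hA
  have hAJ : A ≤ baumannSubgroupOf 2 T := (ThompsonJ.le_J hA).trans (JT_le_bau 2 T)
  have hAF := hAJ.trans bF.bau_le_N
  refine d7_two tE.card tE.gt s hNO (WE_char le_rfl) h.OZ_eq
    (elem_mono (elem_OZ 2 _) h.WE_le_OZ) (h.WE_le_V.trans hVT) hT.pgroup hW cW ?_ (hFE hfF) hf3 hfix ?_ ?_ hA
    (hAJ.trans bE.bau_le_N) (WE_char hAF) ?_
  · apply WF_inter hkE k hFE hW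
    intro w hw hwF
    exact hfix w hw (mem_centralizer_iff.mp hwF f hfF)
  · intro x hx
    rw [← k.comm_V, commutator_comm]
    exact commutator_mem_commutator hfF (h.WE_le_V hx)
  · intro c hc hx
    exact hkE.bar hc hx
  · rw [k.WE_eq (ab_of_ne (by norm_num) hF), ← hSf, gen]
    exact hAF

/-- type A against type D -/
theorem TyA.not_D {T E F : Subgroup G} {K : Type} [Field K] [Fintype K] {n : ℕ} (hT : IsSyl 3 T ⊤)
    (hG : centralizer (pCore 3 G : Set G) ≤ pCore 3 G) (hE : IsBaumannBlock 3 T E) (hF : IsBaumannBlock 3 T F)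
    (tE : TyA 3 E K n) (tF : TyD F) (hFE : F ≤ normalizer (E : Set G)) (hW : WE 3 F ≤ WE 3 E) : False := by
  have hkE := kb_of hG hT hE
  have h := hkE.nb
  have k := nb_of hG hT hF
  have bE := blk_of hT hE
  have bF := blk_of hT hF
  obtain ⟨s⟩ := H56Bau.natSec_of tE.acts
  obtain ⟨S, hS⟩ := exists_isSyl 2 F
  obtain ⟨gen, cW, z, qF, iF⟩ := tF.data k hS
  obtain ⟨b, hb, hbz⟩ := qF.exists_sq
  have hNO : normalizer (E : Set G) ≤ normalizer (OZ 3 (pCoreOf 3 E) : Set G) :=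
    (normalizer_le_normalizer_pCoreOf 3 _).trans (normalizer_le_normalizer_OZ 3 _)
  apply bF.J_act hG
  change ⁅WE 3 F, _⁆ = ⊥
  rw [commutator_eq_bot_iff_le_centralizer, Subgroup.le_centralizer_iff, ThompsonJ.thompsonSubgroupOf_eq]
  have hAJ := JT_le_bau 3 T
  refine d7_three tE.card tE.gt s hNO (WE_char le_rfl) h.OZ_eq hW cW ?_ (hFE (hS.le hb)) ?_ ?_ ?_
    (hT.pgroup.to_le (JT_le 3 T)) (hAJ.trans bE.bau_le_N) (WE_char (hAJ.trans bF.bau_le_N))
  · apply WF_inter hkE k hFE hW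
    intro w hw hwF
    exact W_inf_nb (p := 3) (r := 2) (by norm_num) hS.pgroup gen hw (centralizer_le hS.le hwF)
  · have : b ^ 4 = (b * b) * (b * b) := by simp only [pow_succ, pow_zero, one_mul, mul_assoc]
    rw [this, hbz, qF.sq]
  · rw [hbz]; exact iF
  · intro x hx
    rw [← k.comm_V, commutator_comm]
    exact commutator_mem_commutator (hS.le hb) (h.WE_le_V hx)

theorem TyA.is_perfect {F : Subgroup G} {K : Type} [Field K] [Fintype K] {n : ℕ} (hres : pRes p F = F) (t : TyA p F K n) :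
    ⁅F, F⁆ = F := perfect_of hres (quasi_sl t.gt t.iso.some)

theorem TyB.is_perfect {F : Subgroup G} {m : ℕ} (hres : pRes 2 F = F) (t : TyB F m) : ⁅F, F⁆ = F :=
  perfect_of hres (quasi_alt t.two t.iso.some)

/-- part (d) -/
theorem partD {T E F B : Subgroup G} (hT : IsSyl p T ⊤) (hG : centralizer (pCore p G : Set G) ≤ pCore p G)
    (hE : IsBaumannBlock p T E) (hF : IsBaumannBlock p T F) (hs : Subn E ⊤)
    (hB : B.Normal) (hBE : B ≤ normalizer (E : Set G)) (hFB : F ≤ B) (hEB : E ≤ B) : F ≤ E ∨ ⁅F, E⁆ = ⊥ := by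
  have hsb := sb_of hG hT hE hs
  have hkE := kb_of hG hT hE
  have hkF := kb_of hG hT hF
  have h := hkE.nb
  have k := hkF.nb
  have hFE := hFB.trans hBE
  have hCE : centralizer (WE p E : Set G) ≤ normalizer (E : Set G) := H56Bau.main hT hG hE
  have hCF : centralizer (WE p F : Set G) ≤ normalizer (F : Set G) := H56Bau.main hT hG hF
  by_cases hc : F ≤ centralizer (WE p E : Set G)
  · right
    rw [commutator_comm]
    exact case1 hT hG hE hF hs hFE hc
  have hFW : F ≤ normalizer (WE p E : Set G) := WE_char hFE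
  have hW : WE p F ≤ WE p E := by
    have h1 : ⁅WE p E, F⁆ ≤ WE p F := by
      rw [← k.comm_V]; exact commutator_mono h.WE_le_V le_rfl
    rcases k.WE_irr h1 (normalizer_commutator_ge_right _ _) with h2 | h2
    · exfalso
      apply hc
      have h3 := commutator_pRes_idem (p := p) (P := WE p E) (K := F)
        ((isPGroup_pCore p G).to_le (h.WE_le_V.trans V_le)) hFW
      rw [k.res, commutator_eq_bot_iff_le_centralizer.mpr h2] at h3
      rw [eq_comm, commutator_eq_bot_iff_le_centralizer, Subgroup.le_centralizer_iff] at h3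
      exact h3
    · rw [← h2]; exact commutator_le_left_of_le hFW
  rcases types hT hE with ⟨K, _, _, n, tE⟩ | ⟨hp2, m, tE⟩ | ⟨hp2, tE⟩ | ⟨hp3, tE⟩
  · rcases types hT hF with ⟨K', _, _, n', tF⟩ | ⟨hp2, m', tF⟩ | ⟨hp2, tF⟩ | ⟨hp3, tF⟩
    · left
      have hpf := tF.is_perfect k.res
      exact fin_perfect hsb hkE hkF hpf hW hFE hB hBE hFB hEB hCE hCF (tE.perfect hkE hFE hpf)
    · left
      subst hp2
      have hpf := tF.is_perfect k.res
      exact fin_perfect hsb hkE hkF hpf hW hFE hB hBE hFB hEB hCE hCF (tE.perfect hkE hFE hpf)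
    · subst hp2
      exact (tE.not_C hT hG hE hF tF hFE hW).elim
    · subst hp3
      exact (tE.not_D hT hG hE hF tF hFE hW).elim
  · subst hp2
    left
    exact fin_nonexc h k (ab_of_ne (by norm_num) hE) (ab_of_ne (by norm_num) hF) hW hCE (tE.inner h hFE k.res)
  · subst hp2
    left
    exact fin_nonexc h k (ab_of_ne (by norm_num) hE) (ab_of_ne (by norm_num) hF) hW hCE (tE.inner h hFE k.res)
  · subst hp3
    obtain ⟨S, hS⟩ := exists_isSyl 2 E
    obtain ⟨-, cE, -⟩ := tE.data h hS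
    rcases types hT hF with ⟨K', _, _, n', tF⟩ | ⟨hp2, m', tF⟩ | ⟨hp2, tF⟩ | ⟨-, tF⟩
    · exfalso
      have h1 : Fintype.card K' ^ 2 ≤ Nat.card ↥(WE 3 F) := cardW_ge k (card_acts tF.acts)
      have h2 := Subgroup.card_le_of_le hW
      rw [cE] at h2
      have h3 := tF.gt
      nlinarith
    · omega
    · omega
    · obtain ⟨S', hS'⟩ := exists_isSyl 2 F
      obtain ⟨-, cF, -⟩ := tF.data k hS'
      have hWW : WE 3 F = WE 3 E := Subgroup.eq_of_le_of_card_ge hW (by rw [cE, cF])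
      rcases tE.pair hT hG hE hF hs tF hWW.symm hB hBE hFB hEB hCE hCF with h1 | h1
      · left; exact h1.ge
      · right; rw [commutator_comm]; exact h1

end Cfsg.Agent.Lib.BN
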