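import Cfsg.Agent.Lib.BBPair13
import Cfsg.Agent.Lib.H56BauO

/-!
Baumann blocks (S2987), piece C1 (helper99): conjugation invariance of the section predicates.
-/

set_option autoImplicit false
set_option linter.unusedSectionVars false

namespace Cfsg.Agent.Lib.BN

open Subgroup Cfsg Cfsg.Agent.Lib.LocBase Cfsg.Agent.Lib.PReduced Cfsg.Agent.Lib.BBlock Cfsg.Agent.Lib.BBPair
open scoped commutatorElement Matrix

universe u
variable {G : Type u} [Group G] {p : ℕ}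

/-- the isomorphism `A ≃* cj g A` -/
noncomputable def c1_equiv (g : G) (A : Subgroup G) : ↥A ≃* ↥(cj g A) :=
  A.equivMapOfInjective (MulAut.conj g).toMonoidHom (MulAut.conj g).injective

theorem c1_coe (g : G) (A : Subgroup G) (a : ↥A) : ((c1_equiv g A a : ↥(cj g A)) : G) = g * a * g⁻¹ := rfl

theorem c1_symm (g : G) (A : Subgroup G) (a : ↥(cj g A)) : (a : G) = g * ((c1_equiv g A).symm a : ↥A) * g⁻¹ := by
  conv_lhs => rw [← (c1_equiv g A).apply_symm_apply a]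
  rfl

theorem c1_mem (g : G) (A : Subgroup G) {x : G} : g * x * g⁻¹ ∈ cj g A ↔ x ∈ A := by
  constructor
  · rintro ⟨y, hy, h⟩
    have h1 : g * y * g⁻¹ = g * x * g⁻¹ := h
    have h2 : y = x := mul_left_cancel (mul_right_cancel h1)
    rwa [← h2]
  · intro hx
    exact ⟨x, hx, rfl⟩

theorem c1_norm (g : G) {E U : Subgroup G} (h : E ≤ normalizer (U : Set G)) : cj g E ≤ normalizer ((cj g U : Subgroup G) : Set G) := by
  rintro _ ⟨e, he, rfl⟩
  have key : ∀ e ∈ E, ∀ x ∈ cj g U, (g * e * g⁻¹) * x * (g * e * g⁻¹)⁻¹ ∈ cj g U := by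
    rintro e he _ ⟨u, hu, rfl⟩
    have h1 : (g * e * g⁻¹) * (g * u * g⁻¹) * (g * e * g⁻¹)⁻¹ = g * (e * u * e⁻¹) * g⁻¹ := by group
    show (g * e * g⁻¹) * (g * u * g⁻¹) * (g * e * g⁻¹)⁻¹ ∈ cj g U
    rw [h1]
    exact ⟨_, (mem_normalizer_iff.1 (h he) u).1 hu, rfl⟩
  rw [mem_normalizer_iff]
  intro x
  refine ⟨key e he x, fun hx => ?_⟩
  have h1 := key e⁻¹ (inv_mem he) _ hx
  have h2 : g * e⁻¹ * g⁻¹ * ((MulAut.conj g).toMonoidHom e * x * ((MulAut.conj g).toMonoidHom e)⁻¹) * (g * e⁻¹ * g⁻¹)⁻¹ = x := by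
    show g * e⁻¹ * g⁻¹ * ((g * e * g⁻¹) * x * (g * e * g⁻¹)⁻¹) * (g * e⁻¹ * g⁻¹)⁻¹ = x
    group
  rwa [h2] at h1

theorem c1_range {H : Type*} [Group H] {A : Subgroup G} (ρ : ↥A →* H) (g : G) :
    (ρ.comp (c1_equiv g A).symm.toMonoidHom).range = ρ.range := by
  ext x
  constructor
  · rintro ⟨y, rfl⟩
    exact ⟨(c1_equiv g A).symm y, rfl⟩
  · rintro ⟨y, rfl⟩
    exact ⟨c1_equiv g A y, by simp⟩

theorem acts_sl_conj {F : Type*} [Field F] {R : Subgroup (Matrix.SpecialLinearGroup (Fin 2) F)} {E U U₀ : Subgroup G}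
    (h : ActsAsSL2OnSection F R E U U₀) (g : G) : ActsAsSL2OnSection F R (cj g E) (cj g U) (cj g U₀) := by
  obtain ⟨h1, h2, ρ, ψ, hρ, hψ, hker, hact⟩ := h
  refine ⟨c1_norm g h1, map_mono h2, ρ.comp (c1_equiv g E).symm.toMonoidHom, ψ.comp (c1_equiv g U).symm.toMonoidHom,
    by rw [c1_range, hρ], ?_, ?_, ?_⟩
  · intro v
    obtain ⟨u, hu⟩ := hψ v
    exact ⟨c1_equiv g U u, by simpa using hu⟩
  · intro u
    rw [c1_symm g U u, c1_mem]
    exact hker _
  · intro e u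
    obtain ⟨w, hw, hw2⟩ := hact ((c1_equiv g E).symm e) ((c1_equiv g U).symm u)
    refine ⟨c1_equiv g U w, ?_, ?_⟩
    · rw [c1_coe, hw, c1_symm g E e, c1_symm g U u]
      group
    · show Multiplicative.toAdd (ψ ((c1_equiv g U).symm (c1_equiv g U w))) = _
      rw [MulEquiv.symm_apply_apply]
      exact hw2

theorem acts_alt_conj {n : ℕ} {R : Subgroup (Equiv.Perm (Fin n))} {E U U₀ : Subgroup G}
    (h : ActsAsOddPermModuleOnSection n R E U U₀) (g : G) :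
    ActsAsOddPermModuleOnSection n R (cj g E) (cj g U) (cj g U₀) := by
  obtain ⟨h1, h2, ρ, ψ, hρ, hsum, hψ, hker, hact⟩ := h
  refine ⟨c1_norm g h1, map_mono h2, ρ.comp (c1_equiv g E).symm.toMonoidHom, ψ.comp (c1_equiv g U).symm.toMonoidHom,
    by rw [c1_range, hρ], fun u => hsum _, ?_, ?_, ?_⟩
  · intro v hv
    obtain ⟨u, hu⟩ := hψ v hv
    exact ⟨c1_equiv g U u, by simpa using hu⟩
  · intro u
    rw [c1_symm g U u, c1_mem]
    exact hker _
  · intro e u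
    obtain ⟨w, hw, hw2⟩ := hact ((c1_equiv g E).symm e) ((c1_equiv g U).symm u)
    refine ⟨c1_equiv g U w, ?_, ?_⟩
    · rw [c1_coe, hw, c1_symm g E e, c1_symm g U u]
      group
    · intro i
      show Multiplicative.toAdd (ψ ((c1_equiv g U).symm (c1_equiv g U w))) i = _
      rw [MulEquiv.symm_apply_apply]
      exact hw2 i

end Cfsg.Agent.Lib.BN
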