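import Cfsg.Agent.Lib.BBPair13
import Cfsg.Agent.Lib.H56BauO
import Cfsg.Agent.Lib.Cores
import Mathlib.GroupTheory.Frattini

set_option autoImplicit false
set_option linter.unusedSectionVars false

/-! S2987, piece C2 (helper81): conjugation invariance of `E / O_p(E)` and of the Frattini subgroup. -/

namespace Cfsg.Agent.Lib.BN

open Subgroup Cfsg Cfsg.Agent.Lib.LocBase Cfsg.Agent.Lib.PReduced Cfsg.Agent.Lib.BBlock Cfsg.Agent.Lib.BBPair
open scoped commutatorElement Matrix

universe u
variable {G : Type u} [Group G] {p : ℕ}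

/-- the isomorphism `E ≃* E^g` -/
noncomputable def c2Equiv (E : Subgroup G) (g : G) : ↥E ≃* ↥(cj g E) :=
  E.equivMapOfInjective (MulAut.conj g).toMonoidHom (MulAut.conj g).injective

theorem c2Equiv_coe (E : Subgroup G) (g : G) (x : ↥E) : ((c2Equiv E g x : ↥(cj g E)) : G) = g * x * g⁻¹ := rfl

theorem quot_conj [Finite G] [Fact p.Prime] (E : Subgroup G) (g : G) :
    Nonempty ((↥(cj g E) ⧸ pCore p ↥(cj g E)) ≃* (↥E ⧸ pCore p ↥E)) :=
  ⟨(QuotientGroup.congr _ _ (c2Equiv E g) (Cores.map_pCore_equiv p (c2Equiv E g))).symm⟩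

theorem c2_frat {A B : Type*} [Group A] [Group B] (e : A ≃* B) : (frattini A).map e.toMonoidHom = frattini B := by
  apply le_antisymm
  · rw [Subgroup.map_le_iff_le_comap]
    exact frattini_le_comap_frattini_of_surjective (φ := e.toMonoidHom) e.surjective
  · have := frattini_le_comap_frattini_of_surjective (φ := e.symm.toMonoidHom) e.symm.surjective
    intro x hx
    exact ⟨e.symm x, this hx, e.apply_symm_apply x⟩

theorem frattini_conj (Q : Subgroup G) (g : G) :
    (frattini ↥(cj g Q)).map (cj g Q).subtype = cj g ((frattini ↥Q).map Q.subtype) := by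
  rw [← c2_frat (c2Equiv Q g), Subgroup.map_map]
  show _ = ((frattini ↥Q).map Q.subtype).map (MulAut.conj g).toMonoidHom
  rw [Subgroup.map_map]
  congr 1

end Cfsg.Agent.Lib.BN
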