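import Cfsg.Agent.Lib.BBPair13
import Cfsg.Agent.Lib.H56BauO
import Cfsg.Agent.Lib.BNC1
import Cfsg.Agent.Lib.BNC2

/-!
# S2987, piece C3: conjugation invariance of Baumann blocks (helper84)
-/

set_option autoImplicit false
set_option linter.unusedSectionVars false

namespace Cfsg.Agent.Lib.BN

open Subgroup Cfsg Cfsg.Agent.Lib.LocBase Cfsg.Agent.Lib.PReduced Cfsg.Agent.Lib.BBlock Cfsg.Agent.Lib.BBPair
open scoped commutatorElement Matrix

universe u
variable {G : Type u} [Group G] {p : ℕ}


theorem card_cj (g : G) (A : Subgroup G) : Nat.card ↥(cj g A) = Nat.card ↥A :=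
  (Nat.card_congr (A.equivMapOfInjective _ (MulAut.conj g).injective).toEquiv).symm

theorem cj_le_iff (g : G) {A B : Subgroup G} : cj g A ≤ cj g B ↔ A ≤ B :=
  Subgroup.map_le_map_iff_of_injective (MulAut.conj g).injective

theorem cj_zpowers (g b : G) : cj g (zpowers b) = zpowers (g * b * g⁻¹) := by
  rw [cj, MonoidHom.map_zpowers]; rfl

theorem block_conj [Finite G] [Fact p.Prime] {T E : Subgroup G} (h : IsBaumannBlock p T E) (g : G) :
    IsBaumannBlock p (cj g T) (cj g E) := by
  obtain ⟨h1, h2, h3, h4, h5⟩ := h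
  have hO : ∀ A : Subgroup G, omegaOneCenter p A = OZ p A := fun A => rfl
  have hZ : omegaOneCenter p (pCoreOf p (cj g E)) ⊓ centralizer (cj g E : Set G) =
      cj g (omegaOneCenter p (pCoreOf p E) ⊓ centralizer (E : Set G)) := by
    rw [hO, cQ, cO, cC, cI]
    rfl
  refine ⟨?_, ?_, ?_, ?_, ?_⟩
  · rw [pResidualOf_eq] at h1 ⊢
    rw [cR, h1]
  · rw [cBau, cB, h2]
  · rw [cQ, cB, h3]
  · rw [hO, cO, cB]
    intro hb
    apply h4
    rw [hO]
    exact (Subgroup.map_eq_bot_iff_of_injective _ (MulAut.conj g).injective).mp hb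
  · rcases h5 with ⟨F, iF, iF', n, hF, ⟨e⟩, ha, hq⟩ | ⟨hp2, m, ⟨e⟩, ha, hq⟩
    · left
      refine ⟨F, iF, iF', n, hF, ?_, ?_, ?_⟩
      · obtain ⟨f⟩ := quot_conj (p := p) E g
        exact ⟨f.trans e⟩
      · rw [hZ, hO, cQ, cO]
        exact acts_sl_conj ha g
      · rcases hq with hq | ⟨hp3, hq1, hq2, hq3, hq4, hq5, hq6⟩
        · left
          rw [hO, cQ, cO]
          conv_lhs => rw [hq]
          rfl
        · right
          refine ⟨hp3, ?_, ?_, ?_, ?_, ?_, ?_⟩
          · rw [hO, cQ, cO]
            exact acts_sl_conj hq1 g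
          · rw [hZ, cQ, cB, hq2]
          · rw [hZ, cQ, frattini_conj, hq3]
          · rw [hZ, cC, cI, hq4]
          · rw [cC, cI, card_cj, hq5]
          · intro b hb hb2
            rw [cBau] at hb
            obtain ⟨b', hb', rfl⟩ := hb
            have e1 : (MulAut.conj g).toMonoidHom b' = g * b' * g⁻¹ := rfl
            rw [e1] at hb2 ⊢
            have h6 : b' ∉ centralizer (omegaOneCenter p (pCoreOf p E) : Set G) := by
              intro hc
              apply hb2
              rw [hO, cQ, cO, cC]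
              exact ⟨b', hc, rfl⟩
            have h7 := hq6 b' hb' h6
            intro hle
            apply h7
            rw [← cj_zpowers, cQ, cB, cB, cC, cI, cj_le_iff] at hle
            exact hle
    · right
      refine ⟨hp2, m, ?_, ?_, ?_⟩
      · obtain ⟨f⟩ := quot_conj (p := p) E g
        exact ⟨f.trans e⟩
      · rw [hZ, hO, cQ, cO]
        exact acts_alt_conj ha g
      · rw [hO, cQ, cO]
        conv_lhs => rw [hq]
        rfl

end Cfsg.Agent.Lib.BN
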