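import Cfsg.Agent.Lib.BBPair13
import Cfsg.Agent.Lib.H56BauO
import Cfsg.Agent.Lib.LocTrace

/-!
# Piece P2 of S2987 (helper49): the subgroup `U` for a linear block
-/

set_option autoImplicit false
set_option linter.unusedSectionVars false

namespace Cfsg.Agent.Lib.BN

open Subgroup Cfsg Cfsg.Agent.Lib.LocBase Cfsg.Agent.Lib.PReduced Cfsg.Agent.Lib.BBlock
open scoped commutatorElement Matrix

universe u
variable {G : Type u} [Group G] [Finite G] {p : ℕ} [hp : Fact p.Prime]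

namespace P2

section nat

variable {F : Type} [Field F] [Fintype F] {n : ℕ}

theorem comm_top (h3 : 3 < Fintype.card F) : commutator (Matrix.SpecialLinearGroup (Fin 2) F) = ⊤ :=
  (SLQuasi.quasisimple_SL (F := F) (n := 2) le_rfl (fun _ => SLQuasi.exists_sq_ne_one h3)).1.1

theorem exists_trans (v : Fin 2 → F) (hv : v ≠ 0) : ∃ r : Matrix.SpecialLinearGroup (Fin 2) F,
    (r : Matrix (Fin 2) (Fin 2) F) *ᵥ v = ![1, 0] := by
  by_cases h0 : v 0 = 0
  · have h1 : v 1 ≠ 0 := by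
      intro h1
      apply hv
      funext i
      fin_cases i
      · exact h0
      · exact h1
    refine ⟨⟨!![0, (v 1)⁻¹; -(v 1), v 0], ?_⟩, ?_⟩
    · rw [Matrix.det_fin_two_of, h0]
      field_simp
      ring
    · funext i
      fin_cases i
      · simp [Matrix.mulVec, dotProduct, Fin.sum_univ_two, h1]
      · simp [Matrix.mulVec, dotProduct, Fin.sum_univ_two, h0]
  · refine ⟨⟨!![(v 0)⁻¹, 0; -(v 1), v 0], ?_⟩, ?_⟩
    · rw [Matrix.det_fin_two_of]
      field_simp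
      ring
    · funext i
      fin_cases i
      · simp [Matrix.mulVec, dotProduct, Fin.sum_univ_two, h0]
      · simp [Matrix.mulVec, dotProduct, Fin.sum_univ_two]
        ring

/-- a `p`-subgroup fixes a nonzero vector -/
theorem exists_vec {E W U₀ : Subgroup G} (s : H56Bau.NatSec F E W U₀) (hF : Fintype.card F = p ^ n)
    {P : Subgroup G} (hP : IsPGroup p P) (hPE : P ≤ E) :
    ∃ v : Fin 2 → F, v ≠ 0 ∧ ∀ g ∈ P, (s.ρ g : Matrix (Fin 2) (Fin 2) F) *ᵥ v = v := by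
  let act : MulAction ↥P (Fin 2 → F) :=
    { smul := fun g v => (s.ρ (g : G) : Matrix (Fin 2) (Fin 2) F) *ᵥ v
      one_smul := fun v => by
        change (s.ρ ((1 : ↥P) : G) : Matrix (Fin 2) (Fin 2) F) *ᵥ v = v
        rw [Subgroup.coe_one, s.ρ_one]
        simp
      mul_smul := fun g h v => by
        change (s.ρ ((g * h : ↥P) : G) : Matrix (Fin 2) (Fin 2) F) *ᵥ v =
          (s.ρ (g : G) : Matrix (Fin 2) (Fin 2) F) *ᵥ ((s.ρ (h : G) : Matrix (Fin 2) (Fin 2) F) *ᵥ v)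
        rw [Subgroup.coe_mul, s.ρ_mul _ (hPE g.2) _ (hPE h.2), Matrix.mulVec_mulVec]
        rfl }
  have hn : n ≠ 0 := by
    rintro rfl
    have h1 : 1 < Fintype.card F := Fintype.one_lt_card
    rw [hF, pow_zero] at h1
    omega
  have hdvd : p ∣ Nat.card (Fin 2 → F) := by
    rw [Nat.card_eq_fintype_card, Fintype.card_fun, Fintype.card_fin, hF]
    exact dvd_pow (dvd_pow_self p hn) (by norm_num)
  have hone : (0 : Fin 2 → F) ∈ MulAction.fixedPoints ↥P (Fin 2 → F) := by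
    intro g
    change (s.ρ (g : G) : Matrix (Fin 2) (Fin 2) F) *ᵥ 0 = 0
    exact Matrix.mulVec_zero _
  obtain ⟨v, hv, hne⟩ := hP.exists_fixed_point_of_prime_dvd_card_of_fixed_point (Fin 2 → F) hdvd hone
  exact ⟨v, hne.symm, fun g hg => hv ⟨g, hg⟩⟩

theorem exists_sq_ne (h3 : 3 < Fintype.card F) : ∃ l : F, l ≠ 0 ∧ l ≠ 1 := by
  classical
  by_contra hc
  push Not at hc
  have h1 : (Finset.univ : Finset F) ⊆ {0, 1} := by
    intro l _
    by_cases hl : l = 0
    · simp [hl]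
    · simp [hc l hl]
  have h2 := Finset.card_le_card h1
  have h4 : ({0, 1} : Finset F).card ≤ 2 := Finset.card_le_two
  rw [Finset.card_univ] at h2
  omega

/-- a vector fixed by `N_E(P)` is zero -/
theorem key {E W U₀ : Subgroup G} (s : H56Bau.NatSec F E W U₀) (hF : Fintype.card F = p ^ n)
    (h3 : 3 < Fintype.card F) (hel : ∃ e ∈ E, IsPGroup p (zpowers e) ∧ s.ρ e ≠ 1)
    {P : Subgroup G} (hP : IsSyl p P E) {w : G} (hw : w ∈ W)
    (hc : w ∈ centralizer ((E ⊓ normalizer (P : Set G) : Subgroup G) : Set G)) : w ∈ U₀ := by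
  have htop := comm_top (F := F) h3
  -- reduce to `ρ(P)` fixing `e₁`
  obtain ⟨v, hv, hfix⟩ := exists_vec s hF hP.pgroup hP.le
  obtain ⟨r, hr⟩ := exists_trans v hv
  obtain ⟨e, he, hρe⟩ := s.ρ_surj r (by rw [htop]; exact mem_top _)
  set P' := P.map (MulAut.conj e).toMonoidHom with hP'
  have hEe : E.map (MulAut.conj e).toMonoidHom = E := map_conj_eq_of_mem (le_normalizer he)
  have hSyl : IsSyl p P' E := by
    have := hP.map_conj e
    rwa [hEe] at this
  set w' := e * w * e⁻¹ with hw'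
  have hw'W : w' ∈ W := conj_mem_of_le_normalizer s.nor he hw
  have hc' : ∀ k ∈ E, k ∈ normalizer (P' : Set G) → k * w' = w' * k := by
    intro k hk hkP
    have h1 : e⁻¹ * k * e ∈ E := mul_mem (mul_mem (inv_mem he) hk) he
    have h2 : e⁻¹ * k * e ∈ normalizer (P : Set G) := by
      rw [hP', ← map_conj_normalizer, mem_map_conj] at hkP
      exact hkP
    have h4 := mem_centralizer_iff.mp hc _ (mem_inf.mpr ⟨h1, h2⟩)
    rw [hw']
    calc k * (e * w * e⁻¹) = e * ((e⁻¹ * k * e) * w) * e⁻¹ := by group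
      _ = e * (w * (e⁻¹ * k * e)) * e⁻¹ := by rw [h4]
      _ = _ := by group
  have hfix' : ∀ g ∈ P', (s.ρ g : Matrix (Fin 2) (Fin 2) F) *ᵥ ![1, 0] = ![1, 0] := by
    intro g hg
    rw [hP', mem_map_conj] at hg
    have h1 := hfix _ hg
    have hgE : g ∈ E := by
      have := mul_mem (mul_mem he (hP.le hg)) (inv_mem he)
      have e1 : e * (e⁻¹ * g * e) * e⁻¹ = g := by group
      rwa [e1] at this
    rw [s.ρ_mul _ (mul_mem (inv_mem he) hgE) _ he, s.ρ_mul _ (inv_mem he) _ hgE, s.ρ_inv he, hρe] at h1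
    have h2 : ((r⁻¹ * s.ρ g * r : Matrix.SpecialLinearGroup (Fin 2) F) : Matrix (Fin 2) (Fin 2) F) =
      ((r⁻¹ : Matrix.SpecialLinearGroup (Fin 2) F) : Matrix (Fin 2) (Fin 2) F) * (s.ρ g : Matrix (Fin 2) (Fin 2) F) *
        (r : Matrix (Fin 2) (Fin 2) F) := rfl
    rw [h2, ← Matrix.mulVec_mulVec, ← Matrix.mulVec_mulVec, hr] at h1
    have h4 : (r : Matrix (Fin 2) (Fin 2) F) *ᵥ (((r⁻¹ : Matrix.SpecialLinearGroup (Fin 2) F) : Matrix (Fin 2) (Fin 2) F) *ᵥ
      ((s.ρ g : Matrix (Fin 2) (Fin 2) F) *ᵥ ![1, 0])) = (s.ρ g : Matrix (Fin 2) (Fin 2) F) *ᵥ ![1, 0] := by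
      rw [Matrix.mulVec_mulVec]
      have h5 : (r : Matrix (Fin 2) (Fin 2) F) * ((r⁻¹ : Matrix.SpecialLinearGroup (Fin 2) F) : Matrix (Fin 2) (Fin 2) F) = 1 := by
        have := congrArg (fun M : Matrix.SpecialLinearGroup (Fin 2) F => (M : Matrix (Fin 2) (Fin 2) F)) (mul_inv_cancel r)
        exact this
      rw [h5, Matrix.one_mulVec]
    rw [← h4, h1, hr]
  have hent : ∀ g : G, (s.ρ g : Matrix (Fin 2) (Fin 2) F) *ᵥ ![1, 0] = ![1, 0] →
      (s.ρ g : Matrix (Fin 2) (Fin 2) F) 0 0 = 1 ∧ (s.ρ g : Matrix (Fin 2) (Fin 2) F) 1 0 = 0 ∧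
        (s.ρ g : Matrix (Fin 2) (Fin 2) F) 1 1 = 1 := by
    intro g hg
    have h0 := congrFun hg 0
    have h1 := congrFun hg 1
    simp [Matrix.mulVec, dotProduct, Fin.sum_univ_two] at h0 h1
    have h2 := (s.ρ g).2
    rw [Matrix.det_fin_two, h0, h1] at h2
    simp at h2
    exact ⟨h0, h1, h2⟩
  have hfw : ∀ k ∈ E, k ∈ normalizer (P' : Set G) →
      (s.ρ k : Matrix (Fin 2) (Fin 2) F) *ᵥ (s.ψ w') = s.ψ w' := by
    intro k hk hkP
    rw [← s.act k hk w' hw'W, hc' k hk hkP]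
    congr 1
    group
  -- the second coordinate vanishes
  have hψ1 : s.ψ w' 1 = 0 := by
    obtain ⟨e0, he0, he0p, he01⟩ := hel
    obtain ⟨h, hh, hle⟩ := hSyl.exists_conj_le he0p (by rwa [zpowers_le])
    have hg : h * e0 * h⁻¹ ∈ P' := hle (mem_map_conj.mpr (by
      have e1 : h⁻¹ * (h * e0 * h⁻¹) * h = e0 := by group
      rw [e1]; exact mem_zpowers e0))
    have hgE := hSyl.le hg
    have hg1 : s.ρ (h * e0 * h⁻¹) ≠ 1 := by
      rw [s.ρ_mul _ (mul_mem hh he0) _ (inv_mem hh), s.ρ_mul _ hh _ he0, s.ρ_inv hh]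
      intro hcon
      apply he01
      rwa [conj_eq_one_iff] at hcon
    obtain ⟨a1, a2, a3⟩ := hent _ (hfix' _ hg)
    have h5 := congrFun (hfw _ hgE (le_normalizer hg)) 0
    simp only [Matrix.mulVec, dotProduct, Fin.sum_univ_two, a1, one_mul] at h5
    have h6 : (s.ρ (h * e0 * h⁻¹) : Matrix (Fin 2) (Fin 2) F) 0 1 * s.ψ w' 1 = 0 := by
      linear_combination h5
    rcases mul_eq_zero.mp h6 with h7 | h7
    · exfalso
      apply hg1
      apply Subtype.ext
      ext i j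
      fin_cases i <;> fin_cases j
      · exact a1
      · exact h7
      · exact a2
      · exact a3
    · exact h7
  -- the torus
  obtain ⟨l, hl0, hl1⟩ := exists_sq_ne (F := F) h3
  let d : Matrix.SpecialLinearGroup (Fin 2) F := ⟨!![l, 0; 0, l⁻¹], by
    rw [Matrix.det_fin_two_of]; field_simp; ring⟩
  have hd : ∀ a : F, (d : Matrix (Fin 2) (Fin 2) F) *ᵥ ![a, 0] = ![l * a, 0] := by
    intro a
    funext i
    fin_cases i <;> simp [d, Matrix.mulVec, dotProduct, Fin.sum_univ_two]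
  have hdi : ∀ a : F, ((d⁻¹ : Matrix.SpecialLinearGroup (Fin 2) F) : Matrix (Fin 2) (Fin 2) F) *ᵥ ![a, 0] =
      ![l⁻¹ * a, 0] := by
    intro a
    have h1 := hd (l⁻¹ * a)
    rw [← mul_assoc, mul_inv_cancel₀ hl0, one_mul] at h1
    rw [← h1, Matrix.mulVec_mulVec]
    have h5 : ((d⁻¹ : Matrix.SpecialLinearGroup (Fin 2) F) : Matrix (Fin 2) (Fin 2) F) * (d : Matrix (Fin 2) (Fin 2) F) = 1 := by
      have := congrArg (fun M : Matrix.SpecialLinearGroup (Fin 2) F => (M : Matrix (Fin 2) (Fin 2) F)) (inv_mul_cancel d)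
      exact this
    rw [h5, Matrix.one_mulVec]
  obtain ⟨h0, hh0, hρh0⟩ := s.ρ_surj d (by rw [htop]; exact mem_top _)
  -- scaling
  have hscal : ∀ (A : Matrix (Fin 2) (Fin 2) F) (a : F), A *ᵥ ![1, 0] = ![1, 0] → A *ᵥ ![a, 0] = ![a, 0] := by
    intro A a hA
    have e1 : (![a, 0] : Fin 2 → F) = a • ![1, 0] := by
      funext i
      fin_cases i <;> simp
    rw [e1, Matrix.mulVec_smul, hA]
  let M : Subgroup G :=
    { carrier := {x | x ∈ E ∧ (s.ρ x : Matrix (Fin 2) (Fin 2) F) *ᵥ ![1, 0] = ![1, 0]}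
      one_mem' := ⟨one_mem _, by rw [s.ρ_one]; simp⟩
      mul_mem' := by
        rintro a b ⟨ha, ha2⟩ ⟨hb, hb2⟩
        refine ⟨mul_mem ha hb, ?_⟩
        rw [s.ρ_mul _ ha _ hb]
        have h2 : ((s.ρ a * s.ρ b : Matrix.SpecialLinearGroup (Fin 2) F) : Matrix (Fin 2) (Fin 2) F) =
          (s.ρ a : Matrix (Fin 2) (Fin 2) F) * (s.ρ b : Matrix (Fin 2) (Fin 2) F) := rfl
        rw [h2, ← Matrix.mulVec_mulVec, hb2, ha2]
      inv_mem' := by
        rintro a ⟨ha, ha2⟩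
        refine ⟨inv_mem ha, ?_⟩
        rw [s.ρ_inv ha]
        conv_lhs => rw [← ha2]
        rw [Matrix.mulVec_mulVec]
        have h5 : (((s.ρ a)⁻¹ : Matrix.SpecialLinearGroup (Fin 2) F) : Matrix (Fin 2) (Fin 2) F) *
            (s.ρ a : Matrix (Fin 2) (Fin 2) F) = 1 := by
          have := congrArg (fun M : Matrix.SpecialLinearGroup (Fin 2) F => (M : Matrix (Fin 2) (Fin 2) F)) (inv_mul_cancel (s.ρ a))
          exact this
        rw [h5, Matrix.one_mulVec] }
  have hME : M ≤ E := fun x hx => hx.1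
  have hMn : ∀ x ∈ M, h0 * x * h0⁻¹ ∈ M := by
    rintro x ⟨hx, hx2⟩
    refine ⟨mul_mem (mul_mem hh0 hx) (inv_mem hh0), ?_⟩
    rw [s.ρ_mul _ (mul_mem hh0 hx) _ (inv_mem hh0), s.ρ_mul _ hh0 _ hx, s.ρ_inv hh0, hρh0]
    have h2 : ((d * s.ρ x * d⁻¹ : Matrix.SpecialLinearGroup (Fin 2) F) : Matrix (Fin 2) (Fin 2) F) =
      (d : Matrix (Fin 2) (Fin 2) F) * (s.ρ x : Matrix (Fin 2) (Fin 2) F) *
        ((d⁻¹ : Matrix.SpecialLinearGroup (Fin 2) F) : Matrix (Fin 2) (Fin 2) F) := rfl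
    rw [h2, ← Matrix.mulVec_mulVec, ← Matrix.mulVec_mulVec, hdi, hscal _ _ hx2, hd]
    rw [mul_one, mul_inv_cancel₀ hl0]
  have hMN : h0 ∈ normalizer (M : Set G) := by
    apply mem_normalizer_of_map_conj_le
    rintro _ ⟨x, hx, rfl⟩
    exact hMn x hx
  have hP'M : P' ≤ M := fun g hg => ⟨hSyl.le hg, hfix' g hg⟩
  have hSM : IsSyl p P' M := hSyl.of_le hP'M hME
  obtain ⟨m, hm, k, hk, hmk⟩ := hSM.frattini (H := E ⊓ normalizer (M : Set G)) (le_inf hME le_normalizer)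
    inf_le_right (h := h0) (mem_inf.mpr ⟨hh0, hMN⟩)
  have hkE : k ∈ E := hk.1.1
  have hψ : s.ψ w' = ![s.ψ w' 0, 0] := by
    funext i
    fin_cases i
    · rfl
    · exact hψ1
  have h6 := hfw k hkE hk.2
  have h7 : (s.ρ h0 : Matrix (Fin 2) (Fin 2) F) *ᵥ s.ψ w' = s.ψ w' := by
    rw [hmk, s.ρ_mul _ hm.1 _ hkE]
    have h2 : ((s.ρ m * s.ρ k : Matrix.SpecialLinearGroup (Fin 2) F) : Matrix (Fin 2) (Fin 2) F) =
      (s.ρ m : Matrix (Fin 2) (Fin 2) F) * (s.ρ k : Matrix (Fin 2) (Fin 2) F) := rfl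
    rw [h2, ← Matrix.mulVec_mulVec, h6, hψ]
    exact hscal _ _ hm.2
  rw [hρh0, hψ, hd] at h7
  have h8 := congrFun h7 0
  simp only [Matrix.cons_val_zero] at h8
  have h9 : s.ψ w' 0 = 0 := by
    have h10 : (l - 1) * s.ψ w' 0 = 0 := by linear_combination h8
    rcases mul_eq_zero.mp h10 with h11 | h11
    · exact absurd (sub_eq_zero.mp h11) hl1
    · exact h11
  have h12 : s.ψ w' = 0 := by
    rw [hψ, h9]
    funext i
    fin_cases i <;> rfl
  have h13 : w' ∈ U₀ := (s.ψ_ker w' hw'W).mp h12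
  have h14 := conj_mem_of_le_normalizer' s.nor₀ he h13
  rw [hw'] at h14
  have e1 : e⁻¹ * (e * w * e⁻¹) * e = w := by group
  rwa [e1] at h14

end nat

/-- coprime part: `[V₁, N] ∩ C(N) = 1` if `P` is a normal Sylow subgroup of `N` centralizing the abelian `p`-group `V₁` -/
theorem cop_aux {V₁ P N : Subgroup G} (hV : V₁ ≤ centralizer (V₁ : Set G)) (hVp : IsPGroup p V₁) (hP : IsSyl p P N)
    (hPn : N ≤ normalizer (P : Set G)) (hVP : V₁ ≤ centralizer (P : Set G)) (hNV : N ≤ normalizer (V₁ : Set G)) :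
    ⁅V₁, N⁆ ⊓ centralizer (N : Set G) = ⊥ := by
  have hV' : IsMulCommutative ↥V₁ := le_centralizer_iff_isMulCommutative.mp hV
  obtain ⟨S, hS⟩ := hP.exists_sylow
  have hn : (P.subgroupOf N).Normal := normal_subgroupOf_of_le_normalizer hPn
  have hn' : (S : Subgroup ↥N).Normal := by rw [hS]; exact hn
  obtain ⟨K, hK⟩ := Subgroup.exists_right_complement'_of_coprime S.card_coprime_index
  set H := K.map N.subtype with hH
  have hHN : H ≤ N := map_subtype_le _
  have hsup : P ⊔ H = N := by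
    have h1 := hK.sup_eq_top
    have h2 := congrArg (Subgroup.map N.subtype) h1
    rw [Subgroup.map_sup, hS, Subgroup.map_subgroupOf_eq_of_le hP.le] at h2
    rw [hH, h2]
    rw [← MonoidHom.range_eq_map, Subgroup.range_subtype]
  have hcardH : (Nat.card ↥H).Coprime (Nat.card ↥V₁) := by
    obtain ⟨k, hk⟩ := IsPGroup.iff_card.mp hVp
    rw [hk]
    apply Nat.Coprime.pow_right
    have h1 : Nat.card ↥H = (S : Subgroup ↥N).index := by
      rw [hH, Subgroup.card_map_of_injective N.subtype_injective]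
      exact hK.symm.index_eq_card.symm
    rw [h1]
    exact ((Nat.Prime.coprime_iff_not_dvd hp.out).mpr (Sylow.not_dvd_index S)).symm
  have hle : ⁅V₁, N⁆ ≤ ⁅V₁, H⁆ := by
    rw [commutator_le]
    intro v hv x hx
    rw [← hsup] at hx
    obtain ⟨a, ha, b, hb, rfl⟩ := exists_mul_of_mem_sup_of_le (hHN.trans hPn) hx
    have h1 : ⁅v, b⁆ ∈ ⁅V₁, H⁆ := commutator_mem_commutator hv hb
    have h2 : ⁅v, b⁆ ∈ V₁ := commutator_le_left_of_le (hHN.trans hNV) h1
    have h3 : a * ⁅v, b⁆ = ⁅v, b⁆ * a := mem_centralizer_iff.mp (hVP h2) a ha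
    have h4 : a * v = v * a := mem_centralizer_iff.mp (hVP hv) a ha
    have e1 : ⁅v, a * b⁆ = ⁅v, b⁆ := by
      calc ⁅v, a * b⁆ = (v * a) * b * v⁻¹ * b⁻¹ * a⁻¹ := by rw [commutatorElement_def]; group
        _ = a * ⁅v, b⁆ * a⁻¹ := by rw [← h4, commutatorElement_def]; group
        _ = ⁅v, b⁆ := by rw [h3]; group
    rw [e1]
    exact h1
  rw [eq_bot_iff]
  rintro x ⟨hx1, hx2⟩
  have h1 := CoprimeAction2.inf_commutator_eq_bot_of_abelian (A := H) (V := V₁) (hHN.trans hNV) hcardH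
  rw [← h1]
  refine ⟨⟨?_, centralizer_le hHN hx2⟩, hle hx1⟩
  exact commutator_le_left_of_le hNV hx1

end P2

theorem sl_U {E T : Subgroup G} (h : BBPair.SB p E) (hT : IsSyl p T ⊤) {F : Type} [Field F] [Fintype F] {n : ℕ}
    (hF : Fintype.card F = p ^ n) (h3 : 3 < Fintype.card F)
    (hact : ActsAsSL2OnSection F (commutator (Matrix.SpecialLinearGroup (Fin 2) F)) E
      (OZ p (pCoreOf p E)) (OZ p (pCoreOf p E) ⊓ centralizer (E : Set G))) :
    ∃ U : Subgroup G, U ≤ BBPair.WE p E ∧ T ⊓ normalizer (E : Set G) ≤ normalizer (U : Set G) ∧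
      U ⊓ centralizer (E : Set G) = ⊥ ∧ 2 < Nat.card ↥U := by
  obtain ⟨s⟩ := H56Bau.natSec_of hact
  have hel : ∃ e ∈ E, IsPGroup p (zpowers e) ∧ s.ρ e ≠ 1 := by
    obtain ⟨e, he, hep, x, hx, hne⟩ := BBPair.sl2_pelt hF h3 hact
    refine ⟨e, he, hep, fun hc => hne ?_⟩
    have h1 : ⁅x, e⁆ ∈ OZ p (pCoreOf p E) := commutator_le_left_of_le s.nor (commutator_mem_commutator hx he)
    rw [← s.ψ_ker _ h1]
    have h2 : ⁅x, e⁆ = x * (e * x * e⁻¹)⁻¹ := by rw [commutatorElement_def]; group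
    have h4 : e * x * e⁻¹ ∈ OZ p (pCoreOf p E) := conj_mem_of_le_normalizer s.nor he hx
    rw [h2, s.ψ_mul _ hx _ (inv_mem h4), s.ψ_inv h4, s.act e he x hx, hc]
    simp
  set V := OZ p (pCore p G) with hV
  set P := T ⊓ E with hPdef
  have hP : IsSyl p P E := h.sub.isSyl hT
  set N := E ⊓ normalizer (P : Set G) with hN
  have hPN : P ≤ N := le_inf hP.le le_normalizer
  have hPsyl : IsSyl p P N := hP.of_le hPN inf_le_left
  have hVV : V ≤ centralizer (V : Set G) := (elem_iff.mp (elem_OZ p _)).1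
  have hVp : IsPGroup p V := elem_isPGroup (elem_OZ p _)
  set V₁ := V ⊓ centralizer (P : Set G) with hV₁
  have hNV : N ≤ normalizer (V₁ : Set G) :=
    le_normalizer_inf (BBPair.V_norm N) (le_normalizer_centralizer inf_le_right)
  have hfit := P2.cop_aux (p := p) (V₁ := V₁) (P := P) (N := N)
    ((inf_le_left.trans hVV).trans (centralizer_le inf_le_left)) (hVp.to_le inf_le_left) hPsyl inf_le_right inf_le_right hNV
  refine ⟨⁅V₁, N⁆, ?_, ?_, ?_, ?_⟩
  · exact (commutator_mono inf_le_left inf_le_left).trans h.comm_V.le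
  · have hKP : T ⊓ normalizer (E : Set G) ≤ normalizer (P : Set G) :=
      le_normalizer_inf (inf_le_left.trans le_normalizer) inf_le_right
    exact le_normalizer_commutator (le_normalizer_inf (BBPair.V_norm _) (le_normalizer_centralizer hKP))
      (le_normalizer_inf inf_le_right (hKP.trans le_normalizer))
  · rw [eq_bot_iff, ← hfit]
    exact inf_le_inf_left _ (centralizer_le inf_le_left)
  · by_contra hcard
    have hUN : ⁅V₁, N⁆ ≤ centralizer (N : Set G) := by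
      have hNU : N ≤ normalizer ((⁅V₁, N⁆ : Subgroup G) : Set G) := normalizer_commutator_ge_right _ _
      intro x hx
      rw [mem_centralizer_iff]
      intro a ha
      by_cases hx1 : x = 1
      · rw [hx1]; simp
      have h1 : a * x * a⁻¹ ∈ ⁅V₁, N⁆ := conj_mem_of_le_normalizer hNU ha hx
      have h2 : a * x * a⁻¹ ≠ 1 := fun hc => hx1 (by rwa [conj_eq_one_iff] at hc)
      by_contra hne
      have hne' : a * x * a⁻¹ ≠ x := fun hc => hne (by rw [mul_inv_eq_iff_eq_mul] at hc; exact hc)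
      apply hcard
      have h4 : ({1, x, a * x * a⁻¹} : Set G) ⊆ (⁅V₁, N⁆ : Subgroup G) := by
        rintro y (rfl | rfl | rfl)
        · exact one_mem _
        · exact hx
        · exact h1
      have h5 : Set.ncard ({1, x, a * x * a⁻¹} : Set G) = 3 := by
        rw [Set.ncard_eq_three]
        exact ⟨1, x, a * x * a⁻¹, Ne.symm hx1, Ne.symm h2, Ne.symm hne', rfl⟩
      have h6 := Set.ncard_le_ncard h4 (Set.toFinite _)
      rw [h5] at h6
      have h7 : Set.ncard ((⁅V₁, N⁆ : Subgroup G) : Set G) = Nat.card ↥⁅V₁, N⁆ := rfl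
      omega
    have hUbot : ⁅V₁, N⁆ = ⊥ := by
      rw [← hfit]
      exact (inf_eq_left.mpr hUN).symm
    have hVN : V₁ ≤ centralizer (N : Set G) := commutator_eq_bot_iff_le_centralizer.mp hUbot
    have hVE : V₁ ≤ centralizer (E : Set G) := by
      intro z hz
      obtain ⟨c, hcV, hcE, w, hw, hwP, rfl⟩ := LocTrace.gaschutz hVV hVp (BBPair.V_norm E) hP hz.1 hz.2
      refine mul_mem hcE ?_
      rw [h.res] at hw
      have hwV : w ∈ V := commutator_le_left_of_le (BBPair.V_norm E) hw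
      have hwW : w ∈ OZ p (pCoreOf p E) := by
        have := h.comm_V (p := p)
        rw [this] at hw
        exact h.WE_le_OZ hw
      exact (P2.key s hF h3 hel hP hwW (hVN ⟨hwV, hwP⟩)).2
    obtain ⟨T₀, hT₀⟩ := h.blk
    apply hT₀.act
    rw [commutator_comm, commutator_eq_bot_iff_le_centralizer]
    have hP₀ : IsSyl p (T₀ ⊓ E) E := h.sub.isSyl hT₀.syl
    obtain ⟨e, he, heq⟩ := hP.conj hP₀
    intro x hx
    have hxV : x ∈ V := hT₀.OZT_le h.cp hx
    have hxC : x ∈ centralizer ((T₀ ⊓ E : Subgroup G) : Set G) := centralizer_le inf_le_left (mem_OZ.mp hx).2.1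
    have h1 : e * x * e⁻¹ ∈ V₁ := by
      refine ⟨conj_mem_of_le_normalizer (BBPair.V_norm E) he hxV, ?_⟩
      rw [← heq, ← map_conj_centralizer]
      refine mem_map_conj.mpr ?_
      have e1 : e⁻¹ * (e * x * e⁻¹) * e = x := by group
      rw [e1]
      exact hxC
    have h2 := hVE h1
    have h4 := conj_mem_of_le_normalizer' (le_normalizer_centralizer (le_normalizer (H := E))) he h2
    have e1 : e⁻¹ * (e * x * e⁻¹) * e = x := by group
    rwa [e1] at h4

end Cfsg.Agent.Lib.BN
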