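import Cfsg.Agent.Lib.BBPair13
import Cfsg.Agent.Lib.H56BauO

set_option autoImplicit false
set_option linter.unusedSectionVars false

namespace Cfsg.Agent.Lib.BN

open Subgroup Cfsg Cfsg.Agent.Lib.LocBase Cfsg.Agent.Lib.PReduced Cfsg.Agent.Lib.BBlock
open scoped commutatorElement Matrix

universe u
variable {G : Type u} [Group G] [Finite G] {p : ℕ} [hp : Fact p.Prime]

/-- the abstract situation -/
structure Abs (p : ℕ) (T V E U : Subgroup G) : Prop where
  T_p : IsPGroup p T
  V_el : IsElementaryAbelian p V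
  V_le : V ≤ T
  V_n : V.Normal
  U_le : U ≤ V
  U_E : U ≤ E
  U_c : U ⊓ centralizer (E : Set G) = ⊥
  U_2 : 2 < Nat.card ↥U
  U_n : T ⊓ normalizer (E : Set G) ≤ normalizer (U : Set G)
  comm : ∀ g : G, g ∉ normalizer (E : Set G) → ⁅E.map (MulAut.conj g).toMonoidHom, E⁆ = ⊥

theorem p3_norm_of_elem {V A B : Subgroup G} (hV : IsElementaryAbelian p V) (hA : A ≤ V) (hB : B ≤ V) :
    A ≤ normalizer (B : Set G) := by
  intro a ha
  rw [mem_normalizer_iff]
  have hc := (elem_iff.mp hV).1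
  intro b
  have key : ∀ b ∈ V, a * b * a⁻¹ = b := by
    intro b hb
    rw [← mem_centralizer_iff.mp (hc (hA ha)) b hb, mul_inv_cancel_right]
  constructor
  · intro hb
    rw [key b (hB hb)]; exact hb
  · intro hb
    have h1 : b ∈ V := by
      have h2 := V.mul_mem (V.mul_mem (V.inv_mem (hA ha)) (hB hb)) (hA ha)
      have e : a⁻¹ * (a * b * a⁻¹) * a = b := by group
      rwa [e] at h2
    rwa [key b h1] at hb

theorem ind {ι : Type*} [DecidableEq ι] (s : Finset ι) (U E : ι → Subgroup G) (V : Subgroup G) (hV : IsElementaryAbelian p V)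
    (hUV : ∀ i ∈ s, U i ≤ V) (hUE : ∀ i ∈ s, U i ≤ E i) (hcomm : ∀ i ∈ s, ∀ j ∈ s, i ≠ j → ⁅E i, E j⁆ = ⊥)
    (hc : ∀ i ∈ s, U i ⊓ centralizer (E i : Set G) = ⊥) :
    Nat.card ↥(⨆ i ∈ s, U i) = ∏ i ∈ s, Nat.card ↥(U i) ∧
      (⨆ i ∈ s, U i) ⊓ (⨅ i ∈ s, centralizer (E i : Set G)) = ⊥ := by
  induction s using Finset.induction_on with
  | empty => simp
  | insert a s ha ih =>
    obtain ⟨ih1, ih2⟩ := ih (fun i hi => hUV i (Finset.mem_insert_of_mem hi))
      (fun i hi => hUE i (Finset.mem_insert_of_mem hi))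
      (fun i hi j hj => hcomm i (Finset.mem_insert_of_mem hi) j (Finset.mem_insert_of_mem hj))
      (fun i hi => hc i (Finset.mem_insert_of_mem hi))
    rw [Finset.iSup_insert, Finset.iInf_insert, Finset.prod_insert ha]
    have hXV : (⨆ i ∈ s, U i) ≤ V := iSup₂_le (fun i hi => hUV i (Finset.mem_insert_of_mem hi))
    have hXc : (⨆ i ∈ s, U i) ≤ centralizer (E a : Set G) := by
      refine iSup₂_le (fun i hi => (hUE i (Finset.mem_insert_of_mem hi)).trans ?_)
      rw [← commutator_eq_bot_iff_le_centralizer]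
      exact hcomm i (Finset.mem_insert_of_mem hi) a (Finset.mem_insert_self a s) (fun h => ha (h ▸ hi))
    have hUc : ∀ x ∈ U a, x ∈ (⨆ i ∈ s, U i) → x = 1 := by
      intro x hx hxX
      have h1 : x ∈ U a ⊓ centralizer (E a : Set G) := ⟨hx, hXc hxX⟩
      rwa [hc a (Finset.mem_insert_self a s), mem_bot] at h1
    have hn : (⨆ i ∈ s, U i) ≤ normalizer (U a : Set G) :=
      p3_norm_of_elem hV hXV (hUV a (Finset.mem_insert_self a s))
    constructor
    · rw [BBPair.card_sup_of_inf hn hUc, ih1]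
    · rw [eq_bot_iff]
      rintro x ⟨hx, hxc⟩
      obtain ⟨u, hu, y, hy, rfl⟩ := exists_mul_of_mem_sup_of_le hn hx
      have h1 : u * y ∈ centralizer (E a : Set G) := (inf_le_left : _ ≤ centralizer (E a : Set G)) hxc
      have h2 : u ∈ centralizer (E a : Set G) := by
        have := mul_mem h1 (inv_mem (hXc hy))
        rwa [mul_inv_cancel_right] at this
      have h3 : u = 1 := by
        have h4 : u ∈ U a ⊓ centralizer (E a : Set G) := ⟨hu, h2⟩
        rwa [hc a (Finset.mem_insert_self a s), mem_bot] at h4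
      subst h3
      rw [one_mul] at hxc ⊢
      rw [← ih2]
      exact ⟨hy, (inf_le_right : _ ≤ ⨅ i ∈ s, centralizer (E i : Set G)) hxc⟩


theorem p3_idem {T W B : Subgroup G} (hT : IsPGroup p T) (hW : W ≤ T) (hB : B ≤ T) (h : ⁅W, B⁆ = W) : W = ⊥ := by
  have hnil : Group.IsNilpotent ↥T := hT.isNilpotent
  obtain ⟨n, hn⟩ := Subgroup.nilpotent_iff_lowerCentralSeries.mp hnil
  have hinj : Function.Injective (Subgroup.map T.subtype) := map_injective T.subtype_injective
  have h1 : ⁅W.subgroupOf T, B.subgroupOf T⁆ = W.subgroupOf T := by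
    apply hinj
    rw [map_commutator, subgroupOf_map_subtype, subgroupOf_map_subtype, inf_eq_left.mpr hW, inf_eq_left.mpr hB, h]
  have key : ∀ m, W.subgroupOf T ≤ (⊤ : Subgroup ↥T).lowerCentralSeries m := by
    intro m
    induction m with
    | zero => exact le_top
    | succ m ih =>
      rw [← h1]
      exact commutator_mono ih le_top
  have h2 : W.subgroupOf T = ⊥ := le_bot_iff.mp (hn ▸ key n)
  have h3 := congrArg (Subgroup.map T.subtype) h2
  rwa [subgroupOf_map_subtype, inf_eq_left.mpr hW, Subgroup.map_bot] at h3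

/-- fixed points modulo `C` -/
theorem p3_fix {T X B C : Subgroup G} (hT : IsPGroup p T) (hX : X ≤ T) (hB : B ≤ T) (hBX : B ≤ normalizer (X : Set G))
    (hXC : ¬ X ≤ C) : ∃ u ∈ X, u ∉ C ∧ ∀ b ∈ B, ⁅u, b⁆ ∈ C := by
  classical
  have hex : ∃ n : ℕ, ∃ W : Subgroup G, W ≤ X ∧ B ≤ normalizer (W : Set G) ∧ ¬ W ≤ C ∧ Nat.card ↥W = n :=
    ⟨_, X, le_rfl, hBX, hXC, rfl⟩
  obtain ⟨W, hWX, hBW, hWC, hWn⟩ := Nat.find_spec hex
  have hc : ⁅W, B⁆ ≤ W := commutator_le_left_of_le hBW
  have hcn : B ≤ normalizer ((⁅W, B⁆ : Subgroup G) : Set G) := le_normalizer_commutator hBW le_normalizer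
  have h1 : ⁅W, B⁆ ≤ C := by
    by_contra h2
    have h3 : Nat.find hex ≤ Nat.card ↥(⁅W, B⁆ : Subgroup G) := Nat.find_min' hex ⟨_, hc.trans hWX, hcn, h2, rfl⟩
    have h4 : ⁅W, B⁆ = W := Subgroup.eq_of_le_of_card_ge hc (hWn.symm ▸ h3)
    have h5 := p3_idem hT (hWX.trans hX) hB h4
    exact hWC (h5 ▸ bot_le)
  obtain ⟨u, huW, huC⟩ := SetLike.not_le_iff_exists.mp hWC
  exact ⟨u, hWX huW, huC, fun b hb => h1 (commutator_mem_commutator huW hb)⟩

theorem p3_comm {T V E U : Subgroup G} (h : Abs p T V E U) {a b : G} (hab : b⁻¹ * a ∉ normalizer (E : Set G)) :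
    ⁅E.map (MulAut.conj a).toMonoidHom, E.map (MulAut.conj b).toMonoidHom⁆ = ⊥ := by
  have h1 := h.comm _ hab
  have h2 : E.map (MulAut.conj a).toMonoidHom =
      (E.map (MulAut.conj (b⁻¹ * a)).toMonoidHom).map (MulAut.conj b).toMonoidHom := by
    rw [← map_conj_mul, mul_inv_cancel_left]
  rw [h2, ← map_commutator, h1, Subgroup.map_bot]

theorem orb {T V E U B U1 : Subgroup G} (h : Abs p T V E U) (hB : B ≤ T) (hU1 : U1 ≤ U)
    (hn : B ⊓ normalizer (E : Set G) ≤ normalizer (U1 : Set G)) :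
    Nat.card ↥(ncl B U1) = (Nat.card ↥U1) ^ ((B ⊓ normalizer (E : Set G)).relIndex B) ∧
    (∀ x ∈ ncl B U1, (∀ b ∈ B, x ∈ centralizer ((E.map (MulAut.conj b).toMonoidHom : Subgroup G) : Set G)) → x = 1) := by
  classical
  let ι := ↥B ⧸ (B ⊓ normalizer (E : Set G)).subgroupOf B
  have : Finite ι := inferInstance
  let _ : Fintype ι := Fintype.ofFinite ι
  let r : ι → G := fun i => ((Quotient.out i : ↥B) : G)
  have hrB : ∀ i, r i ∈ B := fun i => (Quotient.out i : ↥B).2
  have hrel : ∀ b : ↥B, (r (QuotientGroup.mk b))⁻¹ * b ∈ B ⊓ normalizer (E : Set G) := by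
    intro b
    have h1 : (QuotientGroup.mk (Quotient.out (QuotientGroup.mk b : ι)) : ι) = QuotientGroup.mk b :=
      QuotientGroup.out_eq' _
    have := QuotientGroup.eq.mp h1
    rwa [mem_subgroupOf] at this
  have hne : ∀ i j, i ≠ j → (r j)⁻¹ * r i ∉ normalizer (E : Set G) := by
    intro i j hij hm
    apply hij
    have h1 : (QuotientGroup.mk (Quotient.out j) : ι) = QuotientGroup.mk (Quotient.out i) := by
      rw [QuotientGroup.eq, mem_subgroupOf]
      exact ⟨B.mul_mem (B.inv_mem (hrB j)) (hrB i), hm⟩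
    rw [QuotientGroup.out_eq', QuotientGroup.out_eq'] at h1
    exact h1.symm
  have hUr : ∀ b : ↥B, U1.map (MulAut.conj (b : G)).toMonoidHom =
      U1.map (MulAut.conj (r (QuotientGroup.mk b))).toMonoidHom := by
    intro b
    have e : (b : G) = r (QuotientGroup.mk b) * ((r (QuotientGroup.mk b))⁻¹ * b) := by group
    conv_lhs => rw [e, map_conj_mul, map_conj_eq_of_mem (hn (hrel b))]
  have hind := ind (Finset.univ : Finset ι) (fun i => U1.map (MulAut.conj (r i)).toMonoidHom)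
    (fun i => E.map (MulAut.conj (r i)).toMonoidHom) V h.V_el ?_ ?_ ?_ ?_
  · have hX : (⨆ i ∈ (Finset.univ : Finset ι), U1.map (MulAut.conj (r i)).toMonoidHom) = ncl B U1 := by
      apply le_antisymm
      · refine iSup₂_le fun i _ => ?_
        exact le_iSup (fun g : ↥B => U1.map (MulAut.conj (g : G)).toMonoidHom) ⟨r i, hrB i⟩
      · unfold ncl
        refine iSup_le fun g => ?_
        rw [hUr g]
        exact le_iSup₂_of_le (QuotientGroup.mk g) (Finset.mem_univ _) le_rfl
    rw [hX] at hind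
    refine ⟨?_, ?_⟩
    · rw [hind.1]
      simp only [card_map_conj, Finset.prod_const, Finset.card_univ]
      rw [← Nat.card_eq_fintype_card]
      rfl
    · intro x hx hxc
      have h1 : x ∈ ncl B U1 ⊓ (⨅ i ∈ (Finset.univ : Finset ι),
          centralizer ((E.map (MulAut.conj (r i)).toMonoidHom : Subgroup G) : Set G)) := by
        refine mem_inf.mpr ⟨hx, ?_⟩
        simp only [mem_iInf]
        intro i _
        exact hxc _ (hrB i)
      rwa [hind.2, mem_bot] at h1
  · intro i _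
    have hVn := h.V_n
    have h1 : V.map (MulAut.conj (r i)).toMonoidHom = V := Subgroup.Normal.map_conj_eq _ _
    rw [← h1]
    exact Subgroup.map_mono (hU1.trans h.U_le)
  · intro i _
    exact Subgroup.map_mono (hU1.trans h.U_E)
  · intro i _ j _ hij
    exact p3_comm h (hne i j hij)
  · intro i _
    have h1 : centralizer ((E.map (MulAut.conj (r i)).toMonoidHom : Subgroup G) : Set G) =
        (centralizer (E : Set G)).map (MulAut.conj (r i)).toMonoidHom := BBPair.cC (r i) E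
    rw [h1]
    have h2 := BBPair.cI (r i) U1 (centralizer (E : Set G))
    unfold BBPair.cj at h2
    rw [h2]
    have h3 : U1 ⊓ centralizer (E : Set G) = ⊥ :=
      le_bot_iff.mp ((inf_le_inf_right _ hU1).trans h.U_c.le)
    rw [h3, Subgroup.map_bot]


theorem Abs.act {T V E U : Subgroup G} (h : Abs p T V E U) : ⁅E, OZ p T⁆ ≠ ⊥ := by
  intro hact
  have hn : T ⊓ normalizer (E : Set G) ≤ normalizer (U : Set G) := h.U_n
  obtain ⟨-, h2⟩ := orb h le_rfl le_rfl hn
  have hVn : T ≤ normalizer (V : Set G) := by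
    have := h.V_n
    rw [normalizer_eq_top]
    exact le_top
  have hXV : ncl T U ≤ V := ncl_le h.U_le hVn
  have hX : ¬ ncl T U ≤ ⊥ := by
    intro h3
    have h4 : U ≤ ⊥ := (le_ncl T U).trans h3
    have h5 := h.U_2
    rw [le_bot_iff.mp h4, card_bot] at h5
    omega
  obtain ⟨u, hu, hu1, huc⟩ := p3_fix h.T_p (hXV.trans h.V_le) le_rfl (le_normalizer_ncl T U) hX
  have hcomm : ∀ b ∈ T, b * u = u * b := by
    intro b hb
    have := huc b hb
    rw [mem_bot, commutatorElement_eq_one_iff_mul_comm] at this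
    exact this.symm
  have huO : u ∈ OZ p T := by
    rw [mem_OZ]
    exact ⟨h.V_le (hXV hu), mem_centralizer_iff.mpr hcomm, h.V_el.2 u (hXV hu)⟩
  apply hu1
  rw [mem_bot]
  apply h2 u hu
  intro b hb
  rw [mem_centralizer_iff]
  intro e he
  rw [SetLike.mem_coe, mem_map_conj] at he
  have h3 : E ≤ centralizer (OZ p T : Set G) := commutator_eq_bot_iff_le_centralizer.mp hact
  have h4 := mem_centralizer_iff.mp (h3 he) u huO
  have h5 := hcomm b hb
  have h6 : b⁻¹ * u = u * b⁻¹ := by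
    rw [inv_mul_eq_iff_eq_mul, ← mul_assoc, h5, mul_inv_cancel_right]
  calc e * u = b * ((b⁻¹ * e * b) * (b⁻¹ * u)) := by group
    _ = b * ((b⁻¹ * e * b) * (u * b⁻¹)) := by rw [h6]
    _ = b * ((b⁻¹ * e * b) * u) * b⁻¹ := by group
    _ = b * (u * (b⁻¹ * e * b)) * b⁻¹ := by rw [h4]
    _ = (b * u) * b⁻¹ * e * b * b⁻¹ := by group
    _ = (u * b) * b⁻¹ * e * b * b⁻¹ := by rw [h5]
    _ = u * e := by group

end Cfsg.Agent.Lib.BN
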