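import Cfsg.Agent.Lib.BNP3a
import Cfsg.Agent.Lib.ConjSylow

set_option autoImplicit false
set_option linter.unusedSectionVars false

namespace Cfsg.Agent.Lib.BN

open Subgroup Cfsg Cfsg.Agent.Lib.LocBase Cfsg.Agent.Lib.PReduced Cfsg.Agent.Lib.BBlock
open scoped commutatorElement Matrix

universe u
variable {G : Type u} [Group G] [Finite G] {p : ℕ} [hp : Fact p.Prime]

theorem p3_norm_V {T V E U : Subgroup G} (h : Abs p T V E U) (B : Subgroup G) : B ≤ normalizer (V : Set G) := by
  have := h.V_n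
  rw [normalizer_eq_top]
  exact le_top

/-- fixed points of `A` on the join of the conjugates of `U1` -/
theorem p3_card_fix {T V E U A U1 : Subgroup G} (h : Abs p T V E U) (hA : A ≤ T) (hU1 : U1 ≤ U)
    (hn : A ⊓ normalizer (E : Set G) ≤ normalizer (U1 : Set G)) :
    Nat.card ↥(ncl A U1 ⊓ centralizer (A : Set G) : Subgroup G) ≤
      Nat.card ↥(U1 ⊓ centralizer ((A ⊓ normalizer (E : Set G) : Subgroup G) : Set G) : Subgroup G) := by
  set A0 := A ⊓ normalizer (E : Set G) with hA0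
  set X' : Subgroup G := ⨆ b : {b : G // b ∈ A ∧ b ∉ normalizer (E : Set G)}, U1.map (MulAut.conj (b : G)).toMonoidHom
    with hX'
  have hV : ∀ g : G, U1.map (MulAut.conj g).toMonoidHom ≤ V := by
    intro g
    have hVn := h.V_n
    have h1 : V.map (MulAut.conj g).toMonoidHom = V := Subgroup.Normal.map_conj_eq _ _
    rw [← h1]
    exact Subgroup.map_mono (hU1.trans h.U_le)
  have hX'V : X' ≤ V := iSup_le fun b => hV b
  have hXV : ncl A U1 ≤ V := ncl_le (hU1.trans h.U_le) (p3_norm_V h A)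
  have hX'E : X' ≤ centralizer (E : Set G) := by
    refine iSup_le fun b => ?_
    refine (Subgroup.map_mono (hU1.trans h.U_E)).trans ?_
    exact commutator_eq_bot_iff_le_centralizer.mp (h.comm b b.2.2)
  have hsup : ncl A U1 ≤ U1 ⊔ X' := by
    unfold ncl
    refine iSup_le fun b => ?_
    by_cases hb : (b : G) ∈ normalizer (E : Set G)
    · rw [map_conj_eq_of_mem (hn ⟨b.2, hb⟩)]
      exact le_sup_left
    · refine le_trans ?_ le_sup_right
      exact le_iSup (fun b : {b : G // b ∈ A ∧ b ∉ normalizer (E : Set G)} => U1.map (MulAut.conj (b : G)).toMonoidHom)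
        ⟨b, b.2, hb⟩
  have hX'X : X' ≤ ncl A U1 := by
    refine iSup_le fun b => ?_
    exact le_iSup (fun g : ↥A => U1.map (MulAut.conj (g : G)).toMonoidHom) ⟨b, b.2.1⟩
  have hX'n : ∀ a ∈ A0, X'.map (MulAut.conj a).toMonoidHom ≤ X' := by
    intro a ha
    rw [hX', Subgroup.map_iSup]
    refine iSup_le fun b => ?_
    rw [← map_conj_mul]
    refine le_iSup (fun b : {b : G // b ∈ A ∧ b ∉ normalizer (E : Set G)} => U1.map (MulAut.conj (b : G)).toMonoidHom)
        ⟨a * b, A.mul_mem ha.1 b.2.1, ?_⟩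
    intro hm
    apply b.2.2
    have ha2 : a ∈ normalizer (E : Set G) := ha.2
    have := mul_mem (inv_mem ha2) hm
    rwa [inv_mul_cancel_left] at this
  have hUc : ∀ x, x ∈ U1 → x ∈ X' → x = 1 := by
    intro x hx hx'
    have h1 : x ∈ U ⊓ centralizer (E : Set G) := ⟨hU1 hx, hX'E hx'⟩
    rwa [h.U_c, mem_bot] at h1
  obtain ⟨-, h2⟩ := orb h hA hU1 hn
  have hd1 : ∀ x ∈ (ncl A U1 ⊓ centralizer (A : Set G) : Subgroup G), x ∈ X' → x = 1 := by
    rintro x ⟨hx, hxA⟩ hx'
    apply h2 x hx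
    intro b hb
    rw [mem_centralizer_iff]
    intro e he
    rw [SetLike.mem_coe, mem_map_conj] at he
    have h4 := mem_centralizer_iff.mp (hX'E hx') _ he
    have h5 : b * x = x * b := mem_centralizer_iff.mp hxA b hb
    have h6 : b⁻¹ * x = x * b⁻¹ := by
      rw [inv_mul_eq_iff_eq_mul, ← mul_assoc, h5, mul_inv_cancel_right]
    calc e * x = b * ((b⁻¹ * e * b) * (b⁻¹ * x)) := by group
      _ = b * ((b⁻¹ * e * b) * (x * b⁻¹)) := by rw [h6]
      _ = b * ((b⁻¹ * e * b) * x) * b⁻¹ := by group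
      _ = b * (x * (b⁻¹ * e * b)) * b⁻¹ := by rw [h4]
      _ = (b * x) * b⁻¹ * e * b * b⁻¹ := by group
      _ = (x * b) * b⁻¹ * e * b * b⁻¹ := by rw [h5]
      _ = x * e := by group
  have hle : (ncl A U1 ⊓ centralizer (A : Set G) : Subgroup G) ≤ (U1 ⊓ centralizer (A0 : Set G)) ⊔ X' := by
    rintro x ⟨hx, hxA⟩
    obtain ⟨u, hu, y, hy, rfl⟩ := exists_mul_of_mem_sup_of_le
      (p3_norm_of_elem h.V_el hX'V (hU1.trans h.U_le)) (hsup hx)
    refine mul_mem (mem_sup_left (mem_inf.mpr ⟨hu, mem_centralizer_iff.mpr ?_⟩)) (mem_sup_right hy)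
    intro a ha
    have h5 : a * (u * y) = (u * y) * a := mem_centralizer_iff.mp hxA a ha.1
    have h6 : u⁻¹ * (a * u * a⁻¹) = y * (a * y * a⁻¹)⁻¹ := by
      have e : a * u * a⁻¹ * (a * y * a⁻¹) = u * y := by
        calc a * u * a⁻¹ * (a * y * a⁻¹) = (a * (u * y)) * a⁻¹ := by group
          _ = u * y := by rw [h5]; group
      rw [inv_mul_eq_iff_eq_mul, ← mul_assoc, ← e]; group
    have h7 : u⁻¹ * (a * u * a⁻¹) ∈ U1 := mul_mem (inv_mem hu) (conj_mem_of_le_normalizer hn ha hu)
    have h8 : u⁻¹ * (a * u * a⁻¹) ∈ X' := by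
      rw [h6]
      refine mul_mem hy (inv_mem ?_)
      apply hX'n a ha
      rw [mem_map_conj]
      have e : a⁻¹ * (a * y * a⁻¹) * a = y := by group
      rw [e]; exact hy
    have h9 := hUc _ h7 h8
    rw [inv_mul_eq_one] at h9
    calc a * u = (a * u * a⁻¹) * a := by group
      _ = u * a := by rw [← h9]
  have hc1 : Nat.card ↥((ncl A U1 ⊓ centralizer (A : Set G)) ⊔ X' : Subgroup G) =
      Nat.card ↥(ncl A U1 ⊓ centralizer (A : Set G) : Subgroup G) * Nat.card ↥X' :=
    BBPair.card_sup_of_inf (p3_norm_of_elem h.V_el hX'V (inf_le_left.trans hXV)) hd1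
  have hc2 : Nat.card ↥((U1 ⊓ centralizer (A0 : Set G)) ⊔ X' : Subgroup G) =
      Nat.card ↥(U1 ⊓ centralizer (A0 : Set G) : Subgroup G) * Nat.card ↥X' :=
    BBPair.card_sup_of_inf (p3_norm_of_elem h.V_el hX'V (inf_le_left.trans (hU1.trans h.U_le)))
      (fun x hx hx' => hUc x hx.1 hx')
  have hc3 : Nat.card ↥((ncl A U1 ⊓ centralizer (A : Set G)) ⊔ X' : Subgroup G) ≤
      Nat.card ↥((U1 ⊓ centralizer (A0 : Set G)) ⊔ X' : Subgroup G) :=
    Subgroup.card_le_of_le (sup_le hle le_sup_right)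
  rw [hc1, hc2] at hc3
  exact Nat.le_of_mul_le_mul_right hc3 Nat.card_pos

theorem p3_star {T V E U A U1 : Subgroup G} (h : Abs p T V E U)
    (hA : A ∈ ThompsonJ.maxIn (Cfsg.IsElementaryAbelian p) T) (hU1 : U1 ≤ U)
    (hn : A ⊓ normalizer (E : Set G) ≤ normalizer (U1 : Set G)) :
    (Nat.card ↥U1) ^ ((A ⊓ normalizer (E : Set G)).relIndex A) *
      Nat.card ↥((A ⊓ normalizer (E : Set G)) ⊓ centralizer (U1 : Set G) : Subgroup G) ≤
    ((A ⊓ normalizer (E : Set G)).relIndex A * Nat.card ↥(A ⊓ normalizer (E : Set G) : Subgroup G)) *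
      Nat.card ↥(U1 ⊓ centralizer ((A ⊓ normalizer (E : Set G) : Subgroup G) : Set G) : Subgroup G) := by
  have hAc : A ≤ centralizer (A : Set G) := (elem_iff.mp hA.2.1).1
  set X := ncl A U1 with hX
  have hXV : X ≤ V := ncl_le (hU1.trans h.U_le) (p3_norm_V h A)
  have hcard : (Nat.card ↥U1) ^ ((A ⊓ normalizer (E : Set G)).relIndex A) = Nat.card ↥X := (orb h hA.1 hU1 hn).1.symm
  have hkA : (A ⊓ normalizer (E : Set G)).relIndex A * Nat.card ↥(A ⊓ normalizer (E : Set G) : Subgroup G) =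
      Nat.card ↥A := by
    have h1 := Subgroup.index_mul_card ((A ⊓ normalizer (E : Set G)).subgroupOf A)
    rw [Nat.card_congr (Subgroup.subgroupOfEquivOfLe (inf_le_left : A ⊓ normalizer (E : Set G) ≤ A)).toEquiv] at h1
    exact h1
  rw [hcard, hkA]
  -- `C_{A0}(U1) ≤ C_A(X)`
  have h1 : ((A ⊓ normalizer (E : Set G)) ⊓ centralizer (U1 : Set G) : Subgroup G) ≤ A ⊓ centralizer (X : Set G) := by
    rintro a ⟨ha, hac⟩
    refine mem_inf.mpr ⟨ha.1, mem_centralizer_iff.mpr ?_⟩
    have h2 : X ≤ centralizer ({a} : Set G) := by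
      apply ncl_le
      · intro x hx
        rw [mem_centralizer_singleton_iff]
        exact mem_centralizer_iff.mp hac x hx
      · refine le_trans ?_ le_normalizer
        intro b hb
        rw [mem_centralizer_singleton_iff]
        exact (mem_centralizer_iff.mp (hAc hb) a ha.1).symm
    intro x hx
    exact mem_centralizer_singleton_iff.mp (h2 hx)
  -- offender inequality
  have h2 : IsElementaryAbelian p (X ⊔ (A ⊓ centralizer (X : Set G)) : Subgroup G) := by
    apply elem_sup (elem_mono h.V_el hXV) (elem_mono hA.2.1 inf_le_left)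
    rw [le_centralizer_iff]
    exact inf_le_right
  have h3 : Nat.card ↥(X ⊔ (A ⊓ centralizer (X : Set G)) : Subgroup G) ≤ Nat.card ↥A :=
    hA.2.2 _ (sup_le (hXV.trans h.V_le) (inf_le_left.trans hA.1)) h2
  have h4 : Nat.card ↥(X ⊔ (A ⊓ centralizer (X : Set G)) : Subgroup G) *
      Nat.card ↥(X ⊓ (A ⊓ centralizer (X : Set G)) : Subgroup G) =
      Nat.card ↥X * Nat.card ↥(A ⊓ centralizer (X : Set G) : Subgroup G) := by
    apply ConjSylow.card_sup_mul_card_inf
    refine le_trans ?_ (centralizer_le_normalizer _)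
    rw [le_centralizer_iff]
    exact inf_le_right
  have h5 : Nat.card ↥(X ⊓ (A ⊓ centralizer (X : Set G)) : Subgroup G) ≤
      Nat.card ↥(X ⊓ centralizer (A : Set G) : Subgroup G) :=
    Subgroup.card_le_of_le (inf_le_inf_left _ (inf_le_left.trans hAc))
  have h6 := p3_card_fix h hA.1 hU1 hn
  calc Nat.card ↥X * Nat.card ↥((A ⊓ normalizer (E : Set G)) ⊓ centralizer (U1 : Set G) : Subgroup G)
      ≤ Nat.card ↥X * Nat.card ↥(A ⊓ centralizer (X : Set G) : Subgroup G) :=
        Nat.mul_le_mul_left _ (Subgroup.card_le_of_le h1)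
    _ = _ := h4.symm
    _ ≤ Nat.card ↥A * Nat.card ↥(X ⊓ centralizer (A : Set G) : Subgroup G) := Nat.mul_le_mul h3 h5
    _ ≤ _ := Nat.mul_le_mul_left _ h6

/-- numerical end -/
theorem p3_num {k c u : ℕ} (hk : 2 ≤ k) (hc : 0 < c) (hu : 2 * c ≤ u) (h : u ^ k ≤ k * (c * c)) : False := by
  obtain ⟨m, rfl⟩ : ∃ m, k = m + 2 := ⟨k - 2, by omega⟩
  have h1 : (2 * c) ^ (m + 2) ≤ (m + 2) * (c * c) := (Nat.pow_le_pow_left hu _).trans h
  have h2 : m + 2 < 2 ^ (m + 2) := Nat.lt_two_pow_self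
  have h3 : c * c ≤ c ^ (m + 2) := by
    rw [pow_add, pow_two]
    exact Nat.le_mul_of_pos_left _ (pow_pos hc m)
  rw [mul_pow] at h1
  have h4 : (m + 2) * (c * c) < 2 ^ (m + 2) * c ^ (m + 2) :=
    lt_of_lt_of_le (Nat.mul_lt_mul_of_pos_right h2 (Nat.mul_pos hc hc)) (Nat.mul_le_mul_left _ h3)
  omega

theorem p3_num2 {k u : ℕ} (hk : 2 ≤ k) (hu : 3 ≤ u) (h : u ^ k ≤ k * u) : False := by
  obtain ⟨m, rfl⟩ : ∃ m, k = m + 2 := ⟨k - 2, by omega⟩
  have h1 : u ^ (m + 1) ≤ m + 2 := by
    have : u ^ (m + 1) * u ≤ (m + 2) * u := by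
      rw [← pow_succ]; exact h
    exact Nat.le_of_mul_le_mul_right this (by omega)
  have h2 : 3 ^ (m + 1) ≤ u ^ (m + 1) := Nat.pow_le_pow_left hu _
  have h3 : m + 2 < 3 ^ (m + 1) := by
    have h4 : ∀ m : ℕ, m + 2 < 3 ^ (m + 1) := by
      intro m
      induction m with
      | zero => norm_num
      | succ m ih => rw [pow_succ]; omega
    exact h4 m
  omega

theorem Abs.J_norm {T V E U : Subgroup G} (h : Abs p T V E U) {A : Subgroup G}
    (hA : A ∈ ThompsonJ.maxIn (Cfsg.IsElementaryAbelian p) T) : A ≤ normalizer (E : Set G) := by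
  classical
  by_contra hAE
  have hAc : A ≤ centralizer (A : Set G) := (elem_iff.mp hA.2.1).1
  set A0 : Subgroup G := A ⊓ normalizer (E : Set G) with hA0
  have hk : 2 ≤ A0.relIndex A := by
    have h1 : A0.relIndex A ≠ 1 := by
      intro h2
      rw [Subgroup.relIndex_eq_one] at h2
      exact hAE (h2.trans inf_le_right)
    have h2 : A0.relIndex A ≠ 0 := Subgroup.index_ne_zero_of_finite
    omega
  have hA0T : A0 ≤ T := inf_le_left.trans hA.1
  have hA0U : A0 ≤ normalizer (U : Set G) := (inf_le_inf_right _ hA.1).trans h.U_n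
  have hA0pos : 0 < Nat.card ↥A0 := Nat.card_pos
  by_cases hcase : U ≤ centralizer (A0 : Set G)
  · have h1 := p3_star h hA le_rfl hA0U
    rw [← hA0] at h1
    have h2 : U ⊓ centralizer (A0 : Set G) = U := inf_eq_left.mpr hcase
    have h3 : A0 ⊓ centralizer (U : Set G) = A0 := inf_eq_left.mpr (by rwa [le_centralizer_iff])
    rw [h2, h3] at h1
    have h4 : (Nat.card ↥U) ^ (A0.relIndex A) ≤ A0.relIndex A * Nat.card ↥U := by
      have h5 : (Nat.card ↥U) ^ (A0.relIndex A) * Nat.card ↥A0 ≤ (A0.relIndex A * Nat.card ↥U) * Nat.card ↥A0 := by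
        calc _ ≤ _ := h1
          _ = _ := by ring
      exact Nat.le_of_mul_le_mul_right h5 hA0pos
    exact p3_num2 hk h.U_2 h4
  · set C0 : Subgroup G := U ⊓ centralizer (A0 : Set G) with hC0
    have hUC : ¬ U ≤ C0 := fun h1 => hcase (h1.trans inf_le_right)
    obtain ⟨u, hu, huC, hcm⟩ := p3_fix h.T_p (h.U_le.trans h.V_le) hA0T hA0U hUC
    set U1 : Subgroup G := C0 ⊔ zpowers u with hU1
    have hU1U : U1 ≤ U := sup_le inf_le_left (by rwa [zpowers_le])
    have hn : A0 ≤ normalizer (U1 : Set G) := by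
      intro a ha
      apply mem_normalizer_of_map_conj_le
      rw [hU1, Subgroup.map_sup]
      apply sup_le
      · rintro _ ⟨c, hc, rfl⟩
        have h1 : a * c = c * a := mem_centralizer_iff.mp hc.2 a ha
        have e : (MulAut.conj a).toMonoidHom c = c := by
          change a * c * a⁻¹ = c
          rw [h1, mul_inv_cancel_right]
        rw [e]
        exact mem_sup_left hc
      · rw [MonoidHom.map_zpowers, zpowers_le]
        have h1 := hcm a ha
        have e : (MulAut.conj a).toMonoidHom u = ⁅u, a⁆⁻¹ * u := by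
          change a * u * a⁻¹ = ⁅u, a⁆⁻¹ * u
          rw [commutatorElement_def]; group
        rw [e]
        exact mul_mem (mem_sup_left (inv_mem h1)) (mem_sup_right (mem_zpowers u))
    have h1 := p3_star h hA hU1U hn
    rw [← hA0] at h1
    set D : Subgroup G := A0 ⊓ centralizer (U1 : Set G) with hD
    have hDpos : 0 < Nat.card ↥D := Nat.card_pos
    have h2 : Nat.card ↥(U1 ⊓ centralizer (A0 : Set G) : Subgroup G) ≤ Nat.card ↥C0 :=
      Subgroup.card_le_of_le (inf_le_inf_right _ hU1U)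
    have h3 : Nat.card ↥A0 ≤ Nat.card ↥D * Nat.card ↥C0 := by
      have h4 : D.relIndex A0 ≤ Nat.card ↥C0 := by
        rw [Subgroup.relIndex, Subgroup.index]
        refine Nat.card_le_card_of_injective
          (fun q : ↥A0 ⧸ D.subgroupOf A0 => (⟨⁅u, ((Quotient.out q : ↥A0) : G)⁆, hcm _ (Quotient.out q).2⟩ : ↥C0)) ?_
        intro q q' hqq
        have h5 : ⁅u, ((Quotient.out q : ↥A0) : G)⁆ = ⁅u, ((Quotient.out q' : ↥A0) : G)⁆ := congrArg Subtype.val hqq
        rw [← QuotientGroup.out_eq' q, ← QuotientGroup.out_eq' q', QuotientGroup.eq, mem_subgroupOf]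
        have hb := (Quotient.out q : ↥A0).2
        have hb' := (Quotient.out q' : ↥A0).2
        set b : G := ((Quotient.out q : ↥A0) : G) with hbdef
        set b' : G := ((Quotient.out q' : ↥A0) : G) with hb'def
        change b⁻¹ * b' ∈ D
        have hm : b⁻¹ * b' ∈ A0 := mul_mem (inv_mem hb) hb'
        refine mem_inf.mpr ⟨hm, ?_⟩
        have h6 : U1 ≤ centralizer ({b⁻¹ * b'} : Set G) := by
          apply sup_le
          · intro c hc
            rw [mem_centralizer_singleton_iff]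
            exact (mem_centralizer_iff.mp hc.2 _ hm).symm
          · rw [zpowers_le, mem_centralizer_singleton_iff]
            rw [commutatorElement_def, commutatorElement_def] at h5
            -- u b u⁻¹ b⁻¹ = u b' u⁻¹ b'⁻¹, `b, b'` commute
            have hbb : b * b' = b' * b := (mem_centralizer_iff.mp (hAc (mem_inf.mp hb).1) b' (mem_inf.mp hb').1).symm
            have h7 : b * u⁻¹ * b⁻¹ = b' * u⁻¹ * b'⁻¹ := by
              have := congrArg (fun z => u⁻¹ * z) h5
              simpa [mul_assoc] using this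
            have h8 : b'⁻¹ * b * u⁻¹ = u⁻¹ * (b'⁻¹ * b) := by
              calc b'⁻¹ * b * u⁻¹ = b'⁻¹ * (b * u⁻¹ * b⁻¹) * b := by group
                _ = b'⁻¹ * (b' * u⁻¹ * b'⁻¹) * b := by rw [h7]
                _ = u⁻¹ * (b'⁻¹ * b) := by group
            have h9 : (b'⁻¹ * b)⁻¹ * u = u * (b'⁻¹ * b)⁻¹ := by
              have := congrArg (fun z => z⁻¹) h8
              simp only [mul_inv_rev, inv_inv] at this ⊢
              rw [this]
            have e : (b'⁻¹ * b)⁻¹ = b⁻¹ * b' := by group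
            rw [e] at h9
            exact h9.symm
        rw [mem_centralizer_iff]
        intro x hx
        exact mem_centralizer_singleton_iff.mp (h6 hx)
      have h5 := Subgroup.index_mul_card (D.subgroupOf A0)
      rw [Nat.card_congr (Subgroup.subgroupOfEquivOfLe (inf_le_left : D ≤ A0)).toEquiv] at h5
      rw [← h5, mul_comm]
      exact Nat.mul_le_mul_left _ h4
    have h4 : 2 * Nat.card ↥C0 ≤ Nat.card ↥U1 := by
      have h5 : C0 ≤ U1 := le_sup_left
      have h6 := Subgroup.index_mul_card (C0.subgroupOf U1)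
      rw [Nat.card_congr (Subgroup.subgroupOfEquivOfLe h5).toEquiv] at h6
      rw [← h6]
      apply Nat.mul_le_mul_right
      have h7 : (C0.subgroupOf U1).index ≠ 1 := by
        intro h8
        rw [Subgroup.index_eq_one, subgroupOf_eq_top] at h8
        exact huC (h8 (mem_sup_right (mem_zpowers u)))
      have h8 : (C0.subgroupOf U1).index ≠ 0 := Subgroup.index_ne_zero_of_finite
      omega
    have h5 : (Nat.card ↥U1) ^ (A0.relIndex A) ≤ A0.relIndex A * (Nat.card ↥C0 * Nat.card ↥C0) := by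
      have h6 : (Nat.card ↥U1) ^ (A0.relIndex A) * Nat.card ↥D ≤
          (A0.relIndex A * (Nat.card ↥C0 * Nat.card ↥C0)) * Nat.card ↥D := by
        calc _ ≤ _ := h1
          _ ≤ (A0.relIndex A * (Nat.card ↥D * Nat.card ↥C0)) * Nat.card ↥C0 :=
            Nat.mul_le_mul (Nat.mul_le_mul_left _ h3) h2
          _ = _ := by ring
      exact Nat.le_of_mul_le_mul_right h6 hDpos
    exact p3_num hk Nat.card_pos h4 h5

theorem Abs.bau_norm {T V E U : Subgroup G} (h : Abs p T V E U) : baumannSubgroupOf p T ≤ normalizer (E : Set G) := by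
  have hJE : JT p T ≤ normalizer (E : Set G) := sSup_le fun A hA => h.J_norm hA
  have hJT : JT p T ≤ T := JT_le p T
  have hJU : JT p T ≤ normalizer (U : Set G) := (le_inf hJT hJE).trans h.U_n
  have hUb : ¬ U ≤ ⊥ := by
    intro h3
    have h5 := h.U_2
    rw [le_bot_iff.mp h3, card_bot] at h5
    omega
  obtain ⟨w, hw, hw1, hwc⟩ := p3_fix h.T_p (h.U_le.trans h.V_le) hJT hJU hUb
  have hcomm : ∀ b ∈ JT p T, b * w = w * b := by
    intro b hb
    have := hwc b hb
    rw [mem_bot, commutatorElement_eq_one_iff_mul_comm] at this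
    exact this.symm
  have hwp : w ^ p = 1 := h.V_el.2 w (h.U_le hw)
  have hwJ : w ∈ JT p T := by
    obtain ⟨A, hA⟩ := maxIn_nonempty (p := p) T
    apply ThompsonJ.le_J hA
    apply ThompsonJ.mem_of_centralizes_elem hA (h.V_le (h.U_le hw)) hwp
    rw [mem_centralizer_iff]
    intro a ha
    exact hcomm a (ThompsonJ.le_J hA ha)
  have hwZ : w ∈ ZJ p T := by
    unfold ZJ
    rw [mem_omegaOne_of_comm]
    · exact ⟨mem_inf.mpr ⟨hwJ, mem_centralizer_iff.mpr hcomm⟩, hwp⟩
    · rintro x ⟨hx1, hx2⟩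
      exact centralizer_le inf_le_left hx2
  intro b hb
  rw [bau_eq] at hb
  by_contra hbE
  have h1 : w * b = b * w := mem_centralizer_iff.mp hb.2 w hwZ
  have h2 : w ∈ E.map (MulAut.conj b).toMonoidHom := by
    rw [mem_map_conj]
    have e : b⁻¹ * w * b = w := by rw [mul_assoc, h1]; group
    rw [e]
    exact h.U_E hw
  have h3 : w ∈ centralizer (E : Set G) := commutator_eq_bot_iff_le_centralizer.mp (h.comm b hbE) h2
  have h4 : w ∈ U ⊓ centralizer (E : Set G) := mem_inf.mpr ⟨hw, h3⟩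
  rw [h.U_c] at h4
  exact hw1 h4

end Cfsg.Agent.Lib.BN
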