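import Cfsg.Agent.Lib.BBPair13
import Cfsg.Agent.Lib.H56BauO

set_option autoImplicit false
set_option linter.unusedSectionVars false

/-! S2987, piece P8 (helper81): Sylow conjugation inside a normal subgroup containing `B(T)`, and transport
of the block conditions. -/

namespace Cfsg.Agent.Lib.BN

open Subgroup Cfsg Cfsg.Agent.Lib.LocBase Cfsg.Agent.Lib.PReduced Cfsg.Agent.Lib.BBlock
open scoped commutatorElement Matrix

universe u
variable {G : Type u} [Group G] [Finite G] {p : ℕ} [hp : Fact p.Prime]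

theorem bau_conj_in {K : Subgroup G} (hK : K.Normal) {T T' : Subgroup G} (hT : IsSyl p T ⊤) (hT' : IsSyl p T' ⊤)
    (hB : baumannSubgroupOf p T ≤ K) :
    ∃ y ∈ K, baumannSubgroupOf p T' = (baumannSubgroupOf p T).map (MulAut.conj y).toMonoidHom := by
  have hN : (⊤ : Subgroup G) ≤ normalizer (K : Set G) := by
    rw [Subgroup.normalizer_eq_top]
  obtain ⟨y, hy, hyT⟩ := (hT'.inf_normal le_top hN).conj (hT.inf_normal le_top hN)
  refine ⟨y, hy, ?_⟩
  have h1 : IsSyl p (T.map (MulAut.conj y).toMonoidHom) ⊤ := by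
    have h := hT.map_conj y
    have e : (⊤ : Subgroup G).map (MulAut.conj y).toMonoidHom = ⊤ :=
      Subgroup.map_top_of_surjective _ (MulAut.conj y).surjective
    rwa [e] at h
  rw [bau_map_conj]
  refine bau_eq_of_syl h1 hT' ?_
  rw [← bau_map_conj]
  calc (baumannSubgroupOf p T).map (MulAut.conj y).toMonoidHom
      ≤ (T ⊓ K).map (MulAut.conj y).toMonoidHom := Subgroup.map_mono (le_inf (bau_le p T) hB)
    _ = T' ⊓ K := hyT
    _ ≤ T' := inf_le_left

theorem p8_comm_conj (A B : Subgroup G) (y : G) :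
    ⁅A, B⁆.map (MulAut.conj y).toMonoidHom =
      ⁅A.map (MulAut.conj y).toMonoidHom, B.map (MulAut.conj y).toMonoidHom⁆ := Subgroup.map_commutator _ _ _

theorem block_transport {E T T' : Subgroup G} {y : G} (hy : y ∈ normalizer (E : Set G)) (h : IsBaumannBlock p T E)
    (hB : baumannSubgroupOf p T' = (baumannSubgroupOf p T).map (MulAut.conj y).toMonoidHom)
    (hact : ⁅E, omegaOneCenter p T'⁆ ≠ ⊥) : IsBaumannBlock p T' E := by
  obtain ⟨h1, h2, h3, -, h5⟩ := h
  have hE : E.map (MulAut.conj y).toMonoidHom = E := map_conj_eq_of_mem hy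
  have hQ : (pCoreOf p E).map (MulAut.conj y).toMonoidHom = pCoreOf p E := by rw [← pCoreOf_map_conj, hE]
  have hO : (omegaOneCenter p (pCoreOf p E)).map (MulAut.conj y).toMonoidHom = omegaOneCenter p (pCoreOf p E) := by
    have := OZ_map_conj p (pCoreOf p E) y
    rw [hQ] at this
    exact this
  refine ⟨h1, ?_, h3, hact, ?_⟩
  · rw [hB]
    have h7 : ⁅E, baumannSubgroupOf p T⁆.map (MulAut.conj y).toMonoidHom = E.map (MulAut.conj y).toMonoidHom := by
      rw [h2]
    rw [p8_comm_conj, hE] at h7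
    exact h7
  · rcases h5 with ⟨F, iF, iFt, n, hn, hiso, hact2, h6⟩ | h5
    · refine Or.inl ⟨F, iF, iFt, n, hn, hiso, hact2, ?_⟩
      rcases h6 with h6 | ⟨hp3, a1, a2, a3, a4, a5, a6⟩
      · exact Or.inl h6
      · refine Or.inr ⟨hp3, a1, a2, a3, a4, a5, ?_⟩
        intro b hb hbc hle
        rw [hB] at hb
        obtain ⟨b₀, hb₀, rfl⟩ := hb
        refine a6 b₀ hb₀ ?_ ?_
        · intro hc
          apply hbc
          have : ((MulAut.conj y).toMonoidHom b₀) ∈
              (centralizer (omegaOneCenter p (pCoreOf p E) : Set G)).map (MulAut.conj y).toMonoidHom := ⟨b₀, hc, rfl⟩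
          rw [map_conj_centralizer, hO] at this
          exact this
        · have e1 : zpowers ((MulAut.conj y).toMonoidHom b₀) = (zpowers b₀).map (MulAut.conj y).toMonoidHom :=
            (MonoidHom.map_zpowers _ _).symm
          rw [e1] at hle
          have e2 : (E ⊓ centralizer (E : Set G)).map (MulAut.conj y).toMonoidHom = E ⊓ centralizer (E : Set G) := by
            rw [Subgroup.map_inf_eq _ _ _ (MulAut.conj y).injective, map_conj_centralizer, hE]
          rw [← map_conj_le_map_conj y, p8_comm_conj, p8_comm_conj, hQ, e2]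
          exact hle
    · exact Or.inr h5

end Cfsg.Agent.Lib.BN
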