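import Cfsg.Agent.Lib.BN7
import Cfsg.Agent.Lib.BNP2
import Cfsg.Agent.Lib.BNP8
import Cfsg.Agent.Lib.BNP3a
import Cfsg.Agent.Lib.BNP3b
import Cfsg.Agent.Lib.BNC3

/-!
# S2987 (helper78): assembly
-/

set_option autoImplicit false
set_option linter.unusedSectionVars false

namespace Cfsg.Agent.Lib.BN

open Subgroup Cfsg Cfsg.Agent.Lib.LocBase Cfsg.Agent.Lib.PReduced Cfsg.Agent.Lib.BBlock Cfsg.Agent.Lib.BBPair
open scoped commutatorElement

universe u
variable {G : Type u} [Group G] [Finite G] {p : ℕ} [hp : Fact p.Prime]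

theorem exists_U {T₀ T E : Subgroup G} (hG : centralizer (pCore p G : Set G) ≤ pCore p G) (hT₀ : IsSyl p T₀ ⊤)
    (hE : IsBaumannBlock p T₀ E) (hs : Subn E ⊤) (hT : IsSyl p T ⊤) :
    ∃ U : Subgroup G, U ≤ WE p E ∧ T ⊓ normalizer (E : Set G) ≤ normalizer (U : Set G) ∧
      U ⊓ centralizer (E : Set G) = ⊥ ∧ 2 < Nat.card ↥U := by
  have hsb := sb_of hG hT₀ hE hs
  have h := nb_of_sb hsb
  rcases types hT₀ hE with ⟨K, _, _, n, tE⟩ | ⟨hp2, m, tE⟩ | ⟨hp2, tE⟩ | ⟨hp3, tE⟩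
  · exact sl_U hsb hT tE.card tE.gt tE.acts
  · subst hp2
    obtain ⟨h1, h2⟩ := alt_Z tE.two tE.ab h.qe tE.iso tE.acts
    refine ⟨WE 2 E, le_rfl, WE_char inf_le_right, ?_, ?_⟩
    · rw [h.WE_eq tE.ab]; exact h1
    · rw [h.WE_eq tE.ab]; exact h2
  · subst hp2
    obtain ⟨S, hS⟩ := exists_isSyl 3 E
    obtain ⟨gen, cW, f, hfE, hSf, hf3, hfix⟩ := tE.data h hS
    refine ⟨WE 2 E, le_rfl, WE_char inf_le_right, ?_, by rw [cW]; norm_num⟩
    rw [eq_bot_iff]
    intro w hw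
    exact mem_bot.mpr (hfix w hw.1 (mem_centralizer_iff.mp hw.2 f hfE))
  · subst hp3
    obtain ⟨S, hS⟩ := exists_isSyl 2 E
    obtain ⟨gen, cW, z, qE, iE⟩ := tE.data h hS
    refine ⟨WE 3 E, le_rfl, WE_char inf_le_right, ?_, by rw [cW]; norm_num⟩
    rw [eq_bot_iff]
    intro w hw
    exact mem_bot.mpr (W_inf_nb (p := 3) (r := 2) (by norm_num) hS.pgroup gen hw.1 (centralizer_le hS.le hw.2))

theorem abs_of {T₀ T E : Subgroup G} (hG : centralizer (pCore p G : Set G) ≤ pCore p G) (hT₀ : IsSyl p T₀ ⊤)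
    (hE : IsBaumannBlock p T₀ E) (hs : Subn E ⊤) (hT : IsSyl p T ⊤) :
    ∃ U : Subgroup G, Abs p T (OZ p (pCore p G)) E U := by
  have hsb := sb_of hG hT₀ hE hs
  obtain ⟨U, hU1, hU2, hU3, hU4⟩ := exists_U hG hT₀ hE hs hT
  refine ⟨U, ⟨hT.pgroup, elem_OZ p _, V_le.trans (Blk.pCore_le_syl hT), ?_, hU1.trans hsb.WE_le_V,
    hU1.trans (hsb.WE_le_OZ.trans ((OZ_le _).trans (pCoreOf_le E))), hU3, hU4, hU2, ?_⟩⟩
  · rw [← Subgroup.normalizer_eq_top_iff, eq_top_iff]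
    exact V_norm ⊤
  · intro g hg
    have hT' : IsSyl p (cj g T₀) ⊤ := by
      have := hT₀.map_conj g
      rwa [map_conj_eq_of_mem (le_normalizer (mem_top g))] at this
    have hs' : Subn (cj g E) ⊤ := by
      have h1 := hs.map (MulAut.conj g).toMonoidHom
      have h2 : (⊤ : Subgroup G).map (MulAut.conj g).toMonoidHom = ⊤ := map_conj_eq_of_mem (le_normalizer (mem_top g))
      rwa [h2] at h1
    rcases equal_or_commute hG ⟨_, hT', block_conj hE g⟩ ⟨T₀, hT₀, hE⟩ hs' hs with h1 | h1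
    · exact absurd (mem_normalizer_of_map_conj_eq h1) hg
    · exact h1

theorem bau_normal : (baumannSubgroup p G).Normal := by
  rw [← Subgroup.normalizer_eq_top_iff, eq_top_iff]
  intro g _
  apply mem_normalizer_of_map_conj_le
  unfold baumannSubgroup
  rw [Subgroup.map_iSup]
  apply iSup_le
  intro T
  rw [bau_map_conj]
  have h1 : IsSyl p ((T : Subgroup G).map (MulAut.conj g).toMonoidHom) ⊤ := by
    have := (isSyl_top T).map_conj g
    rwa [map_conj_eq_of_mem (le_normalizer (mem_top g))] at this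
  obtain ⟨P, hP⟩ := h1.exists_sylow_top
  rw [← hP]
  exact le_iSup (fun T : Sylow p G => baumannSubgroupOf p (T : Subgroup G)) P

theorem bau_le_B {T : Subgroup G} (hT : IsSyl p T ⊤) : baumannSubgroupOf p T ≤ baumannSubgroup p G := by
  obtain ⟨P, hP⟩ := hT.exists_sylow_top
  rw [← hP]
  exact le_iSup (fun T : Sylow p G => baumannSubgroupOf p (T : Subgroup G)) P

/-- **S2987** -/
theorem main {T₀ E : Subgroup G} (hG : centralizer (pCore p G : Set G) ≤ pCore p G) (hT₀ : IsSyl p T₀ ⊤)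
    (hE : IsBaumannBlock p T₀ E) (hs : Subn E ⊤) :
    E ≤ baumannSubgroup p G ∧ baumannSubgroup p G ≤ normalizer (E : Set G) ∧
      (∀ T' : Subgroup G, IsSyl p T' ⊤ → IsBaumannBlock p T' E) ∧
      ∀ F T' : Subgroup G, IsSyl p T' ⊤ → IsBaumannBlock p T' F → F ≤ E ∨ ⁅F, E⁆ = ⊥ := by
  have hn : (baumannSubgroup p G).Normal := bau_normal
  have hB' : ∀ K : Subgroup G, K ≤ normalizer (baumannSubgroup p G : Set G) := fun K => norm_top _ hn K
  have hBE : baumannSubgroup p G ≤ normalizer (E : Set G) := by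
    unfold baumannSubgroup
    apply iSup_le
    intro T
    obtain ⟨U, hU⟩ := abs_of hG hT₀ hE hs (isSyl_top T)
    exact hU.bau_norm
  have le_B : ∀ {F T' : Subgroup G}, IsSyl p T' ⊤ → IsBaumannBlock p T' F → F ≤ baumannSubgroup p G := by
    intro F T' hT' hF
    have h1 := (blk_of hT' hF).comm
    rw [← h1]
    exact (commutator_mono le_rfl (bau_le_B hT')).trans (commutator_le_right_of_le (hB' F))
  have hC : ∀ T' : Subgroup G, IsSyl p T' ⊤ → IsBaumannBlock p T' E := by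
    intro T' hT'
    obtain ⟨y, hy, hyB⟩ := bau_conj_in hn hT₀ hT' (bau_le_B hT₀)
    obtain ⟨U, hU⟩ := abs_of hG hT₀ hE hs hT'
    exact block_transport (hBE hy) hE hyB hU.act
  refine ⟨le_B hT₀ hE, hBE, hC, ?_⟩
  intro F T' hT' hF
  exact partD hT' hG (hC T' hT') hF hs hn hBE (le_B hT' hF) (le_B hT₀ hE)

end Cfsg.Agent.Lib.BN
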