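import Cfsg.Agent.Lib.H56BauB

/-!
# S2987, pieces P6/P7: semilinear bookkeeping (helper84)
-/

set_option autoImplicit false
set_option linter.unusedSectionVars false

namespace Cfsg.Agent.Lib.BN.P7

open Subgroup Cfsg Cfsg.Agent.Lib.LocBase
open scoped commutatorElement Matrix

universe u
variable {G : Type u} [Group G]
variable {K : Type} [Field K] {E U U₀ : Subgroup G}

/-- `h` acts on the section as the semilinear map `φ` with companion `σ` -/
def Semi (s : H56Bau.NatSec K E U U₀) (h : G) (φ : Equiv.Perm (Fin 2 → K)) (σ : RingAut K) : Prop :=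
  (∀ u ∈ U, s.ψ (h * u * h⁻¹) = φ (s.ψ u)) ∧ ∀ (c : K) (v : Fin 2 → K), φ (c • v) = σ c • φ v

theorem Semi.mul {s : H56Bau.NatSec K E U U₀} {h h' : G} {φ φ' : Equiv.Perm (Fin 2 → K)} {σ σ' : RingAut K}
    (hs : Semi s h φ σ) (hs' : Semi s h' φ' σ') (hU : h' ∈ normalizer (U : Set G)) : Semi s (h * h') (φ * φ') (σ * σ') := by
  refine ⟨fun u hu => ?_, fun c v => ?_⟩
  · have e1 : h * h' * u * (h * h')⁻¹ = h * (h' * u * h'⁻¹) * h⁻¹ := by group
    rw [e1, hs.1 _ ((mem_normalizer_iff.mp hU _).mp hu), hs'.1 u hu]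
    rfl
  · change φ (φ' (c • v)) = σ (σ' c) • φ (φ' v)
    rw [hs'.2, hs.2]

theorem Semi.one (s : H56Bau.NatSec K E U U₀) : Semi s 1 1 1 := by
  refine ⟨fun u _ => ?_, fun c v => ?_⟩
  · have e1 : (1 : G) * u * 1⁻¹ = u := by group
    rw [e1]; rfl
  · rfl

theorem Semi.uniq {s : H56Bau.NatSec K E U U₀} {h : G} {φ φ' : Equiv.Perm (Fin 2 → K)} {σ σ' : RingAut K}
    (hs : Semi s h φ σ) (hs' : Semi s h φ' σ') : φ = φ' ∧ σ = σ' := by
  have h1 : φ = φ' := by
    ext1 v
    obtain ⟨u, hu, rfl⟩ := s.ψ_surj v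
    rw [← hs.1 u hu, ← hs'.1 u hu]
  refine ⟨h1, ?_⟩
  subst h1
  ext1 c
  have h2 := hs.2 c (Pi.single 0 1)
  rw [hs'.2] at h2
  have h3 : φ (Pi.single 0 1) ≠ 0 := by
    intro h
    have h4 : φ 0 = 0 := by
      have := hs.2 0 0
      rwa [zero_smul, map_zero σ, zero_smul] at this
    have h5 := φ.injective (h.trans h4.symm)
    have := congrFun h5 0
    simp at this
  have h4 : (σ' c - σ c) • φ (Pi.single 0 1) = 0 := by rw [sub_smul, h2, sub_self]
  rcases smul_eq_zero.mp h4 with h5 | h5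
  · exact (sub_eq_zero.mp h5).symm
  · exact absurd h5 h3

theorem Semi.pow {s : H56Bau.NatSec K E U U₀} {h : G} {φ : Equiv.Perm (Fin 2 → K)} {σ : RingAut K}
    (hs : Semi s h φ σ) (hU : h ∈ normalizer (U : Set G)) (n : ℕ) : Semi s (h ^ n) (φ ^ n) (σ ^ n) := by
  induction n with
  | zero => rw [pow_zero, pow_zero, pow_zero]; exact Semi.one s
  | succ n ih => rw [pow_succ, pow_succ, pow_succ]; exact ih.mul hs hU

theorem Semi.pow_eq_one {s : H56Bau.NatSec K E U U₀} {h : G} {φ : Equiv.Perm (Fin 2 → K)} {σ : RingAut K}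
    (hs : Semi s h φ σ) (hU : h ∈ normalizer (U : Set G)) {n : ℕ} (hn : h ^ n = 1) : φ ^ n = 1 ∧ σ ^ n = 1 := by
  have h1 := hs.pow hU n
  rw [hn] at h1
  exact h1.uniq (Semi.one s)

/-- (L): a nonlinear semilinear map has few fixed points -/
theorem card_fix_le [Finite K] {φ : Equiv.Perm (Fin 2 → K)} {σ : RingAut K}
    (hs : ∀ (c : K) (v : Fin 2 → K), φ (c • v) = σ c • φ v) (hσ : σ ≠ 1) (C : Set (Fin 2 → K))
    (hC : ∀ v ∈ C, φ v = v) (hsub : ∀ v ∈ C, ∀ w ∈ C, v - w ∈ C) : Nat.card C ≤ Nat.card K := by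
  obtain ⟨μ, hμ⟩ : ∃ μ, σ μ ≠ μ := by
    by_contra hcon
    push Not at hcon
    exact hσ (by ext1 x; exact hcon x)
  have hz : ∀ v ∈ C, ∀ w ∈ C, v = μ • w → w = 0 := by
    intro v hv w hw h
    have h1 := hC v hv
    rw [h, hs, hC w hw] at h1
    have h2 : (σ μ - μ) • w = 0 := by rw [sub_smul, h1, sub_self]
    rcases smul_eq_zero.mp h2 with h3 | h3
    · exact absurd (sub_eq_zero.mp h3) hμ
    · exact h3
  have hinj : Function.Injective (fun x : C × C => x.1.1 + μ • x.2.1) := by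
    rintro ⟨⟨a, ha⟩, ⟨b, hb⟩⟩ ⟨⟨a', ha'⟩, ⟨b', hb'⟩⟩ h
    simp only at h
    have h1 : a - a' = μ • (b' - b) := by
      rw [smul_sub]
      have := sub_eq_zero.mpr h
      rw [sub_eq_iff_eq_add]
      have e : a = (a + μ • b) - μ • b := by abel
      rw [e, h]; abel
    have h2 := hz _ (hsub a ha a' ha') _ (hsub b' hb' b hb) h1
    rw [h2, smul_zero] at h1
    have h3 := sub_eq_zero.mp h1
    have h4 := sub_eq_zero.mp h2
    subst h3; subst h4; rfl
  have h1 := Nat.card_le_card_of_injective _ hinj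
  rw [Nat.card_prod, Nat.card_fun, Nat.card_eq_fintype_card (α := Fin 2), Fintype.card_fin, sq] at h1
  exact Nat.mul_self_le_mul_self_iff.mp (by simpa [sq] using h1)

/-- an automorphism of a field with 9 elements has order at most 2 -/
theorem aut_nine (hK : Nat.card K = 9) (σ : RingAut K) : σ ^ 2 = 1 := by
  have : Finite K := Nat.finite_of_card_ne_zero (by omega)
  obtain ⟨g, hg⟩ := IsCyclic.exists_generator (α := Kˣ)
  have hc : Nat.card Kˣ = 8 := by rw [Nat.card_units, hK]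
  have hog : orderOf g = 8 := by rw [orderOf_eq_card_of_forall_mem_zpowers hg, hc]
  set τ : Kˣ ≃* Kˣ := Units.mapEquiv (σ : K ≃* K) with hτ
  obtain ⟨k, hk⟩ : ∃ k : ℕ, g ^ k = τ g := by
    have := hg (τ g)
    rw [← mem_powers_iff_mem_zpowers] at this
    exact this
  have hk2 : Nat.Coprime 8 k := by
    have h1 : orderOf (τ g) = 8 := by rw [MulEquiv.orderOf_eq, hog]
    rw [← hk, orderOf_pow, hog] at h1
    have h2 : Nat.gcd 8 k ∣ 8 := Nat.gcd_dvd_left _ _
    have h3 : Nat.gcd 8 k ≤ 8 := Nat.le_of_dvd (by norm_num) h2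
    unfold Nat.Coprime
    interval_cases h : Nat.gcd 8 k <;> simp_all
  have hτ2 : τ (τ g) = g := by
    rw [← hk, map_pow, ← hk, ← pow_mul]
    have h3 : k * k ≡ 1 [MOD 8] := by
      have h4 : k % 2 = 1 := by
        by_contra h5
        have h6 : 2 ∣ k := by omega
        have : 2 ∣ Nat.gcd 8 k := Nat.dvd_gcd (by norm_num) h6
        rw [hk2] at this
        omega
      have h5 : k % 8 = 1 ∨ k % 8 = 3 ∨ k % 8 = 5 ∨ k % 8 = 7 := by omega
      unfold Nat.ModEq
      rcases h5 with h5 | h5 | h5 | h5 <;> simp [Nat.mul_mod, h5]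
    have h4 : g ^ (k * k) = g ^ 1 := (pow_eq_pow_iff_modEq (x := g)).mpr (by rw [hog]; exact h3)
    rw [h4, pow_one]
  ext1 x
  rw [pow_two]
  change σ (σ x) = x
  by_cases hx : x = 0
  · rw [hx, map_zero, map_zero]
  · have h1 : ∃ j : ℕ, g ^ j = Units.mk0 x hx := by
      have := hg (Units.mk0 x hx)
      rw [← mem_powers_iff_mem_zpowers] at this
      exact this
    obtain ⟨j, hj⟩ := h1
    have h2 : τ (τ (Units.mk0 x hx)) = Units.mk0 x hx := by
      rw [← hj, map_pow, map_pow, hτ2]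
    have h3 := congrArg Units.val h2
    exact h3

/-- an automorphism of a field with 4 elements has order at most 2 -/
theorem aut_four (hK : Nat.card K = 4) (σ : RingAut K) : σ ^ 2 = 1 := by
  have : Finite K := Nat.finite_of_card_ne_zero (by omega)
  obtain ⟨g, hg⟩ := IsCyclic.exists_generator (α := Kˣ)
  have hc : Nat.card Kˣ = 3 := by rw [Nat.card_units, hK]
  have hog : orderOf g = 3 := by rw [orderOf_eq_card_of_forall_mem_zpowers hg, hc]
  set τ : Kˣ ≃* Kˣ := Units.mapEquiv (σ : K ≃* K) with hτ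
  obtain ⟨k, hk⟩ : ∃ k : ℕ, g ^ k = τ g := by
    have := hg (τ g)
    rw [← mem_powers_iff_mem_zpowers] at this
    exact this
  have hk2 : Nat.Coprime 3 k := by
    have h1 : orderOf (τ g) = 3 := by rw [MulEquiv.orderOf_eq, hog]
    rw [← hk, orderOf_pow, hog] at h1
    have h2 : Nat.gcd 3 k ∣ 3 := Nat.gcd_dvd_left _ _
    have h3 : Nat.gcd 3 k ≤ 3 := Nat.le_of_dvd (by norm_num) h2
    unfold Nat.Coprime
    interval_cases h : Nat.gcd 3 k <;> simp_all
  have hτ2 : τ (τ g) = g := by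
    rw [← hk, map_pow, ← hk, ← pow_mul]
    have h3 : k * k ≡ 1 [MOD 3] := by
      have h4 : k % 3 ≠ 0 := by
        intro h5
        have h6 : 3 ∣ k := by omega
        have : 3 ∣ Nat.gcd 3 k := Nat.dvd_gcd (by norm_num) h6
        rw [hk2] at this
        omega
      have h5 : k % 3 = 1 ∨ k % 3 = 2 := by omega
      unfold Nat.ModEq
      rcases h5 with h5 | h5 <;> simp [Nat.mul_mod, h5]
    have h4 : g ^ (k * k) = g ^ 1 := (pow_eq_pow_iff_modEq (x := g)).mpr (by rw [hog]; exact h3)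
    rw [h4, pow_one]
  ext1 x
  rw [pow_two]
  change σ (σ x) = x
  by_cases hx : x = 0
  · rw [hx, map_zero, map_zero]
  · have h1 : ∃ j : ℕ, g ^ j = Units.mk0 x hx := by
      have := hg (Units.mk0 x hx)
      rw [← mem_powers_iff_mem_zpowers] at this
      exact this
    obtain ⟨j, hj⟩ := h1
    have h2 : τ (τ (Units.mk0 x hx)) = Units.mk0 x hx := by
      rw [← hj, map_pow, map_pow, hτ2]
    have h3 := congrArg Units.val h2
    exact h3

end Cfsg.Agent.Lib.BN.P7
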