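import Mathlib

/-!
# Binary actions (helper14)

A permutation group is binary if 2-equivalent tuples of points are equivalent.
-/

set_option autoImplicit false

namespace Cfsg.Agent.Lib.BinAct

open MulAction

variable {G X : Type*} [Group G] [MulAction G X]

/-- the action is binary -/
def Bin (G X : Type*) [Group G] [MulAction G X] : Prop :=
  ∀ (n : ℕ) (I J : Fin n → X), 2 ≤ n →
    (∀ i j : Fin n, i ≠ j → ∃ g : G, g • I i = J i ∧ g • I j = J j) → ∃ g : G, ∀ i, g • I i = J i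

theorem Bin.fin (hB : Bin G X) {ι : Type*} [Finite ι] (I J : ι → X)
    (h : ∀ i j, ∃ g : G, g • I i = J i ∧ g • I j = J j) : ∃ g : G, ∀ i, g • I i = J i := by
  obtain ⟨n, ⟨e⟩⟩ := Finite.exists_equiv_fin ι
  rcases n with _ | _ | n
  · exact ⟨1, fun i => (e i).elim0⟩
  · by_cases hne : Nonempty ι
    · obtain ⟨i⟩ := hne
      obtain ⟨g, hg, _⟩ := h i i
      refine ⟨g, fun j => ?_⟩
      have : j = i := e.injective (Fin.ext (by omega))
      rw [this, hg]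
    · exact ⟨1, fun i => (hne ⟨i⟩).elim⟩
  · obtain ⟨g, hg⟩ := hB (n + 2) (I ∘ e.symm) (J ∘ e.symm) (by omega) (fun i j _ => h _ _)
    refine ⟨g, fun i => ?_⟩
    have := hg (e i)
    simpa using this

/-- three points -/
theorem Bin.trip (hB : Bin G X) {x1 x2 x3 : X} {h1 h2 h3 : G} (e1 : h1 • x1 = x1) (e2 : h2 • x2 = x2)
    (e3 : h3 • x3 = x3) (h : h1 = h2 * h3) : ∃ k : G, k • x1 = x1 ∧ k • x2 = x2 ∧ k • x3 = h1 • x3 := by
  have e23 : h2 • x3 = h1 • x3 := by rw [h, mul_smul, e3]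
  obtain ⟨g, hg⟩ := hB.fin (ι := Fin 3) ![x1, x2, x3] ![x1, x2, h1 • x3] (by
    have a12 : ∃ g : G, g • x1 = x1 ∧ g • x2 = x2 := ⟨1, one_smul _ _, one_smul _ _⟩
    have a13 : ∃ g : G, g • x1 = x1 ∧ g • x3 = h1 • x3 := ⟨h1, e1, rfl⟩
    have a23 : ∃ g : G, g • x2 = x2 ∧ g • x3 = h1 • x3 := ⟨h2, e2, e23⟩
    intro i j
    fin_cases i <;> fin_cases j
    · exact a12.imp fun g h => ⟨h.1, h.1⟩
    · exact a12
    · exact a13
    · exact a12.imp fun g h => ⟨h.2, h.1⟩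
    · exact a12.imp fun g h => ⟨h.2, h.2⟩
    · exact a23
    · exact a13.imp fun g h => ⟨h.2, h.1⟩
    · exact a23.imp fun g h => ⟨h.2, h.1⟩
    · exact a13.imp fun g h => ⟨h.2, h.2⟩)
  exact ⟨g, hg 0, hg 1, hg 2⟩

/-- three points, general form -/
theorem Bin.three (hB : Bin G X) {x1 x2 x3 y3 : X}
    (a12 : ∃ g : G, g • x1 = x1 ∧ g • x2 = x2)
    (a13 : ∃ g : G, g • x1 = x1 ∧ g • x3 = y3)
    (a23 : ∃ g : G, g • x2 = x2 ∧ g • x3 = y3) :
    ∃ k : G, k • x1 = x1 ∧ k • x2 = x2 ∧ k • x3 = y3 := by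
  obtain ⟨g, hg⟩ := hB.fin (ι := Fin 3) ![x1, x2, x3] ![x1, x2, y3] (by
    intro i j
    fin_cases i <;> fin_cases j
    · exact a12.imp fun g h => ⟨h.1, h.1⟩
    · exact a12
    · exact a13
    · exact a12.imp fun g h => ⟨h.2, h.1⟩
    · exact a12.imp fun g h => ⟨h.2, h.2⟩
    · exact a23
    · exact a13.imp fun g h => ⟨h.2, h.1⟩
    · exact a23.imp fun g h => ⟨h.2, h.1⟩
    · exact a13.imp fun g h => ⟨h.2, h.2⟩)
  exact ⟨g, hg 0, hg 1, hg 2⟩

/-- four points -/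
theorem Bin.quad (hB : Bin G X) {x1 x2 x3 x4 y3 y4 : X}
    (a12 : ∃ g : G, g • x1 = x1 ∧ g • x2 = x2)
    (a13 : ∃ g : G, g • x1 = x1 ∧ g • x3 = y3) (a14 : ∃ g : G, g • x1 = x1 ∧ g • x4 = y4)
    (a23 : ∃ g : G, g • x2 = x2 ∧ g • x3 = y3) (a24 : ∃ g : G, g • x2 = x2 ∧ g • x4 = y4)
    (a34 : ∃ g : G, g • x3 = y3 ∧ g • x4 = y4) :
    ∃ k : G, k • x1 = x1 ∧ k • x2 = x2 ∧ k • x3 = y3 ∧ k • x4 = y4 := by
  obtain ⟨g, hg⟩ := hB.fin (ι := Fin 4) ![x1, x2, x3, x4] ![x1, x2, y3, y4] (by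
    intro i j
    fin_cases i <;> fin_cases j
    · exact a12.imp fun g h => ⟨h.1, h.1⟩
    · exact a12
    · exact a13
    · exact a14
    · exact a12.imp fun g h => ⟨h.2, h.1⟩
    · exact a12.imp fun g h => ⟨h.2, h.2⟩
    · exact a23
    · exact a24
    · exact a13.imp fun g h => ⟨h.2, h.1⟩
    · exact a23.imp fun g h => ⟨h.2, h.1⟩
    · exact a13.imp fun g h => ⟨h.2, h.2⟩
    · exact a34
    · exact a14.imp fun g h => ⟨h.2, h.1⟩
    · exact a24.imp fun g h => ⟨h.2, h.1⟩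
    · exact a34.imp fun g h => ⟨h.2, h.1⟩
    · exact a14.imp fun g h => ⟨h.2, h.2⟩)
  exact ⟨g, hg 0, hg 1, hg 2, hg 3⟩

/-- the fixed points of `g`, `h` and `h⁻¹ g` -/
theorem Bin.pw [Finite X] (hB : Bin G X) (g h : G) : ∃ k : G, (∀ x : X, g • x = x → k • x = x) ∧
    (∀ x : X, h • x = x → k • x = x) ∧ (∀ x : X, g • x = h • x → k • x = g • x) := by
  obtain ⟨k, hk⟩ := hB.fin (ι := {x : X // g • x = x} ⊕ {x : X // h • x = x} ⊕ {x : X // g • x = h • x})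
    (Sum.elim Subtype.val (Sum.elim Subtype.val Subtype.val))
    (Sum.elim Subtype.val (Sum.elim Subtype.val (fun x => g • x.1))) (by
    rintro (a | b | c) (a' | b' | c')
    · exact ⟨1, one_smul _ _, one_smul _ _⟩
    · exact ⟨1, one_smul _ _, one_smul _ _⟩
    · exact ⟨g, a.2, rfl⟩
    · exact ⟨1, one_smul _ _, one_smul _ _⟩
    · exact ⟨1, one_smul _ _, one_smul _ _⟩
    · exact ⟨h, b.2, c'.2.symm⟩
    · exact ⟨g, rfl, a'.2⟩
    · exact ⟨h, c.2.symm, b'.2⟩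
    · exact ⟨g, rfl, rfl⟩)
  exact ⟨k, fun x hx => hk (Sum.inl ⟨x, hx⟩), fun x hx => hk (Sum.inr (Sum.inl ⟨x, hx⟩)),
    fun x hx => hk (Sum.inr (Sum.inr ⟨x, hx⟩))⟩

/-- a criterion for binary actions -/
theorem bin_of (hP : ∀ (x0 x1 x2 : X) (h0 h1 h2 : G), h0 • x0 = x0 → h1 • x1 = x1 → h2 • x2 = x2 → h0 = h1 * h2 →
    stabilizer G x0 ≠ stabilizer G x1 → h0 • x2 = x2) : Bin G X := by
  intro n I J hn h
  let i0 : Fin n := ⟨0, by omega⟩
  by_cases hA : ∀ i, stabilizer G (I i) = stabilizer G (I i0)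
  · obtain ⟨g, hg0, _⟩ := h i0 ⟨1, by omega⟩ (fun h => by simpa [i0] using congrArg Fin.val h)
    refine ⟨g, fun i => ?_⟩
    by_cases hi : i = i0
    · rw [hi]; exact hg0
    · obtain ⟨g', h0', hi'⟩ := h i0 i (Ne.symm hi)
      have h1 : g⁻¹ * g' ∈ stabilizer G (I i0) := by
        rw [mem_stabilizer_iff, mul_smul, h0', inv_smul_eq_iff, hg0]
      rw [← hA i, mem_stabilizer_iff, mul_smul, hi', inv_smul_eq_iff] at h1
      exact h1.symm
  · push Not at hA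
    obtain ⟨i1, h1⟩ := hA
    have h01 : i0 ≠ i1 := fun h => h1 (by rw [h])
    obtain ⟨g, hg0, hg1⟩ := h i0 i1 h01
    refine ⟨g, fun i => ?_⟩
    by_cases hi0 : i = i0
    · rw [hi0]; exact hg0
    by_cases hi1 : i = i1
    · rw [hi1]; exact hg1
    obtain ⟨g0, e00, e0i⟩ := h i0 i (Ne.symm hi0)
    obtain ⟨g1, e11, e1i⟩ := h i1 i (Ne.symm hi1)
    have h2 := hP (I i0) (I i1) (I i) (g⁻¹ * g0) (g⁻¹ * g1) (g1⁻¹ * g0)
      (by rw [mul_smul, e00, inv_smul_eq_iff, hg0]) (by rw [mul_smul, e11, inv_smul_eq_iff, hg1])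
      (by rw [mul_smul, e0i, inv_smul_eq_iff, e1i]) (by group) (Ne.symm h1)
    rw [mul_smul, e0i, inv_smul_eq_iff] at h2
    exact h2.symm

/-! ### pointwise stabilizers of fixed point sets -/

/-- the pointwise stabilizer of the set of fixed points of `t` -/
def KK (X : Type*) [MulAction G X] (t : G) : Subgroup G where
  carrier := {k | ∀ x : X, t • x = x → k • x = x}
  one_mem' := fun x _ => one_smul _ x
  mul_mem' := fun {a b} ha hb x hx => by rw [mul_smul, hb x hx, ha x hx]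
  inv_mem' := fun {a} ha x hx => by rw [inv_smul_eq_iff, ha x hx]

theorem mem_KK {t k : G} : k ∈ KK X t ↔ ∀ x : X, t • x = x → k • x = x := Iff.rfl

theorem self_mem_KK (t : G) : t ∈ KK X t := fun _ hx => hx

theorem KK_le_of_mem {s t : G} (h : s ∈ KK X t) : KK X s ≤ KK X t := fun _ hk x hx => hk x (h x hx)

theorem conj_mem_KK {t k : G} (g : G) : g * k * g⁻¹ ∈ KK X (g * t * g⁻¹) ↔ k ∈ KK X t := by
  constructor
  · intro h x hx
    have h1 := h (g • x) (by rw [mul_smul, mul_smul, inv_smul_smul, hx])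
    rw [mul_smul, mul_smul, inv_smul_smul] at h1
    exact smul_left_cancel g h1
  · intro h x hx
    rw [mul_smul, mul_smul, h (g⁻¹ • x), smul_inv_smul]
    rw [mul_smul, mul_smul, smul_eq_iff_eq_inv_smul] at hx
    exact hx

theorem card_KK_conj (g t : G) : Nat.card (KK X (g * t * g⁻¹)) = Nat.card (KK X t) := by
  symm
  refine Nat.card_congr ⟨fun k => ⟨g * k.1 * g⁻¹, (conj_mem_KK g).2 k.2⟩,
    fun k => ⟨g⁻¹ * k.1 * g, (conj_mem_KK g).1 (by
      have : g * (g⁻¹ * k.1 * g) * g⁻¹ = k.1 := by group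
      rw [this]; exact k.2)⟩, fun k => Subtype.ext (by simp; group), fun k => Subtype.ext (by simp; group)⟩

theorem KK_eq_of_mem [Finite G] {s t g : G} (hc : g * t * g⁻¹ = s) (h : s ∈ KK X t) : KK X s = KK X t := by
  have h1 : Nat.card (KK X s) = Nat.card (KK X t) := by rw [← hc, card_KK_conj]
  exact Subgroup.eq_of_le_of_card_ge (KK_le_of_mem h) h1.ge

theorem commute_normalizes {t g k : G} (hg : g * t = t * g) (hk : k ∈ KK X t) : g * k * g⁻¹ ∈ KK X t := by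
  have h1 := (conj_mem_KK (X := X) g).2 hk
  have h2 : g * t * g⁻¹ = t := by rw [hg, mul_assoc, mul_inv_cancel, mul_one]
  rwa [h2] at h1

theorem KK_le_stabilizer {t : G} {x : X} (h : t • x = x) : KK X t ≤ stabilizer G x := fun _ hk => hk x h

end Cfsg.Agent.Lib.BinAct
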