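import Mathlib

set_option linter.unusedSimpArgs false
set_option linter.unusedSectionVars false

/-!
# Binary affine groups, part 1: basic lemmas
`V` finite abelian group, `H` acting by automorphisms; `Bin H V` : the affine group `V ⋊ H` is binary.
-/

namespace Cfsg.Agent.Lib.BinAff

/-- same `H`-orbit -/
def R (H : Type*) {V : Type*} [AddCommGroup V] [Group H] [DistribMulAction H V] (x y : V) : Prop :=
  ∃ h : H, h • x = y

/-- the affine group is binary (tuples based at `0`) -/
def Bin (H V : Type*) [AddCommGroup V] [Group H] [DistribMulAction H V] : Prop :=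
  ∀ (n : ℕ) (x y : Fin n → V), (∀ i, R H (x i) (y i)) →
    (∀ i j, R H (x i - x j) (y i - y j)) → ∃ h : H, ∀ i, h • x i = y i

variable {V : Type*} [AddCommGroup V] {H : Type*} [Group H] [DistribMulAction H V]

lemma R.refl (x : V) : R H x x := ⟨1, one_smul _ _⟩

lemma R.symm {x y : V} (h : R H x y) : R H y x := by
  obtain ⟨g, rfl⟩ := h
  exact ⟨g⁻¹, by simp⟩

lemma R.trans {x y z : V} (h : R H x y) (h' : R H y z) : R H x z := by
  obtain ⟨g, rfl⟩ := h
  obtain ⟨g', rfl⟩ := h'
  exact ⟨g' * g, by rw [mul_smul]⟩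

lemma R.neg {x y : V} (h : R H x y) : R H (-x) (-y) := by
  obtain ⟨g, rfl⟩ := h
  exact ⟨g, by rw [smul_neg]⟩

lemma R.zero {y : V} (h : R H 0 y) : y = 0 := by
  obtain ⟨g, rfl⟩ := h
  exact smul_zero g

lemma R.smul {x y : V} (h : R H x y) (g g' : H) : R H (g • x) (g' • y) :=
  (R.trans (R.trans (⟨g⁻¹, by simp⟩ : R H (g • x) x) h) ⟨g', rfl⟩)

lemma Bin.ext (hb : Bin H V) {ι : Type*} [Finite ι] (x y : ι → V) (h0 : ∀ i, R H (x i) (y i))
    (h1 : ∀ i j, R H (x i - x j) (y i - y j)) : ∃ h : H, ∀ i, h • x i = y i := by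
  have e := Finite.equivFin ι
  obtain ⟨h, hh⟩ := hb _ (x ∘ e.symm) (y ∘ e.symm) (fun i => h0 _) (fun i j => h1 _ _)
  exact ⟨h, fun i => by simpa using hh (e i)⟩

lemma Bin.swap1 [Finite V] (hb : Bin H V) (C : Set V) (a : H) (ha : ∀ c ∈ C, a • c = c) (x : V) :
    ∃ h : H, (∀ c ∈ C, h • c = c) ∧ h • x = a • x ∧ h • (a • x) = x := by
  obtain ⟨h, hh⟩ := hb.ext (ι := Option (Option C))
    (fun i => match i with
      | none => x
      | some none => x + a • x
      | some (some c) => c.1)
    (fun i => match i with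
      | none => a • x
      | some none => x + a • x
      | some (some c) => c.1)
    (by
      rintro (_ | _ | c)
      · exact ⟨a, rfl⟩
      · exact R.refl _
      · exact R.refl _)
    (by
      rintro (_ | _ | c) (_ | _ | d)
      · simpa using R.refl (H := H) (0 : V)
      · exact ⟨a⁻¹, by simp [smul_sub, smul_add]⟩
      · exact ⟨a, by simp [smul_sub, ha _ d.2]⟩
      · exact ⟨a⁻¹, by simp [smul_sub, smul_add]⟩
      · exact R.refl _
      · exact R.refl _
      · exact ⟨a, by simp [smul_sub, ha _ c.2]⟩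
      · exact R.refl _
      · exact R.refl _)
  have h1 : h • x = a • x := hh none
  have h2 : h • (x + a • x) = x + a • x := hh (some none)
  refine ⟨h, fun c hc => hh (some (some ⟨c, hc⟩)), h1, ?_⟩
  rw [smul_add, h1] at h2
  have : a • x + h • a • x = a • x + x := by rw [h2, add_comm]
  exact add_left_cancel this

lemma Bin.swap [Finite V] (hb : Bin H V) {x y : V} (hxy : R H x y) :
    ∃ h : H, h • x = y ∧ h • y = x ∧ ∀ c, R H (x - c) (y - c) → h • c = c := by
  obtain ⟨g, hg⟩ := hb.ext (ι := Option {c : V | R H (x - c) (y - c)})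
    (fun i => match i with
      | none => x
      | some c => c.1)
    (fun i => match i with
      | none => y
      | some c => c.1)
    (by
      rintro (_ | c)
      · exact hxy
      · exact R.refl _)
    (by
      rintro (_ | c) (_ | d)
      · simpa using R.refl (H := H) (0 : V)
      · exact d.2
      · have := c.2.neg
        simpa using this
      · exact R.refl _)
  have g1 : g • x = y := hg none
  obtain ⟨h, h1, h2, h3⟩ := hb.swap1 {c : V | R H (x - c) (y - c)} g
    (fun c hc => hg (some ⟨c, hc⟩)) x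
  rw [g1] at h2 h3
  exact ⟨h, h2, h3, h1⟩

lemma Bin.trn [Finite V] (hb : Bin H V) {x u : V} (hx : R H x (x + u)) :
    ∃ h : H, h • x = x + u ∧ h • (x + u) = x ∧ ∀ c, R H (x + c) (x + c + u) ↔ h • c = c := by
  obtain ⟨h, h1, h2, h3⟩ := hb.swap hx
  refine ⟨h, h1, h2, fun c => ⟨fun hc => ?_, fun hc => ⟨h, by rw [smul_add, h1, hc]; abel⟩⟩⟩
  have := h3 (-c) (by
    have e1 : x - -c = x + c := by abel
    have e2 : x + u - -c = x + c + u := by abel
    rw [e1, e2]; exact hc)
  rw [smul_neg] at this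
  exact neg_injective this

/-- fixed space -/
def F (V : Type*) [AddCommGroup V] {H : Type*} [Group H] [DistribMulAction H V] (h : H) :
    AddSubgroup V where
  carrier := {v | h • v = v}
  zero_mem' := smul_zero h
  add_mem' := fun {a b} ha hb => by
    show h • (a + b) = a + b
    rw [smul_add, show h • a = a from ha, show h • b = b from hb]
  neg_mem' := fun {a} ha => by
    show h • (-a) = -a
    rw [smul_neg, show h • a = a from ha]

lemma mem_F {h : H} {v : V} : v ∈ F V h ↔ h • v = v := Iff.rfl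

/-- commutator space `[V,h]` -/
def D (V : Type*) [AddCommGroup V] {H : Type*} [Group H] [DistribMulAction H V] (h : H) :
    AddSubgroup V :=
  (DistribSMul.toAddMonoidHom V h - AddMonoidHom.id V).range

lemma mem_D {h : H} {u : V} : u ∈ D V h ↔ ∃ y, h • y = y + u := by
  unfold D
  rw [AddMonoidHom.mem_range]
  constructor
  · rintro ⟨y, hy⟩
    refine ⟨y, ?_⟩
    have : h • y - y = u := hy
    rw [← this]; abel
  · rintro ⟨y, hy⟩
    refine ⟨y, ?_⟩
    show h • y - y = u
    rw [hy]; abel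

lemma ker_eq (h : H) :
    (DistribSMul.toAddMonoidHom V h - AddMonoidHom.id V).ker = F V h := by
  ext v
  rw [AddMonoidHom.mem_ker, mem_F]
  show h • v - v = 0 ↔ _
  rw [sub_eq_zero]

lemma card_mul [Finite V] (h : H) : Nat.card (D V h) * Nat.card (F V h) = Nat.card V := by
  have h1 := AddSubgroup.card_eq_card_quotient_mul_card_addSubgroup (F V h)
  rw [h1]
  congr 1
  rw [← ker_eq h]
  exact (Nat.card_congr
    (QuotientAddGroup.quotientKerEquivRange
      (DistribSMul.toAddMonoidHom V h - AddMonoidHom.id V)).toEquiv).symm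

/-- `a` is a non-identity element with maximal fixed space -/
def E (V : Type*) [AddCommGroup V] {H : Type*} [Group H] [DistribMulAction H V] (a : H) : Prop :=
  a ≠ 1 ∧ ∀ h : H, h ≠ 1 → F V a ≤ F V h → F V h ≤ F V a

lemma exists_E [Finite V] [Finite H] {h : H} (hh : h ≠ 1) : ∃ a : H, E V a ∧ F V h ≤ F V a := by
  classical
  obtain ⟨a, ⟨ha1, ha2⟩, ha3⟩ := Set.Finite.exists_maximalFor (fun a : H => Nat.card (F V a))
    {a : H | a ≠ 1 ∧ F V h ≤ F V a} (Set.toFinite _) ⟨h, hh, le_rfl⟩
  refine ⟨a, ⟨ha1, fun g hg hag => ?_⟩, ha2⟩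
  have h1 := ha3 (j := g) ⟨hg, ha2.trans hag⟩ (Nat.card_le_card_of_injective _
    (AddSubgroup.inclusion_injective hag))
  have h2 : F V a = F V g := AddSubgroup.eq_of_le_of_card_ge hag h1
  exact h2.ge

section E
variable [Finite V] [FaithfulSMul H V]

lemma eq_one_of_fix {h : H} (hh : ∀ v : V, h • v = v) : h = 1 :=
  FaithfulSMul.eq_of_smul_eq_smul (α := V) fun v => by rw [hh v, one_smul]

lemma E.eq_one {a : H} (ha : E V a) {h : H} (h1 : F V a ≤ F V h) {x : V} (hx : x ∉ F V a)
    (hx' : h • x = x) : h = 1 := by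
  by_contra hne
  exact hx (ha.2 h hne h1 hx')

lemma E.eq_of {a : H} (ha : E V a) {g : H} (h1 : F V a ≤ F V g) {x : V} (hx : x ∉ F V a)
    (hx' : g • x = a • x) : g = a := by
  have : a⁻¹ * g = 1 := ha.eq_one (h := a⁻¹ * g) (fun v hv => by
    have e1 : g • v = v := h1 hv
    have e2 : a • v = v := hv
    show (a⁻¹ * g) • v = v
    rw [mul_smul, e1, inv_smul_eq_iff, e2]) hx (by rw [mul_smul, hx', inv_smul_smul])
  exact (inv_mul_eq_one.mp this).symm

lemma exists_not_mem {a : H} (ha : a ≠ 1) : ∃ x, x ∉ F V a := by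
  by_contra hcon
  push Not at hcon
  exact ha (eq_one_of_fix hcon)

lemma E.sq (hb : Bin H V) {a : H} (ha : E V a) : a * a = 1 := by
  obtain ⟨x, hx⟩ := exists_not_mem (V := V) ha.1
  obtain ⟨h, h1, h2, h3⟩ := hb.swap1 (F V a : Set V) a (fun c hc => hc) x
  have : h = a := ha.eq_of (fun v hv => h1 v hv) hx h2
  subst this
  refine ha.eq_one (fun v hv => ?_) hx (by rw [mul_smul, h3])
  have e1 : h • v = v := hv
  show (h * h) • v = v
  rw [mul_smul, e1, e1]

/-- key lemma -/
lemma E.key (hb : Bin H V) {a : H} (ha : E V a) {y u : V} (hu : u ≠ 0) (hy : a • y = y + u)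
    (x : V) : R H x (x + u) ↔ a • x = x + u := by
  obtain ⟨h, h1, h2, h3⟩ := hb.trn (x := y) (u := u) ⟨a, hy⟩
  have hyF : y ∉ F V a := by
    intro hc
    rw [mem_F, hy] at hc
    exact hu (by simpa using hc)
  have hle : F V a ≤ F V h := by
    intro c hc
    refine (h3 c).mp ⟨a, ?_⟩
    rw [smul_add, hy, mem_F.mp hc]; abel
  have : h = a := ha.eq_of hle hyF (by rw [h1, hy])
  subst this
  have h4 := h3 (x - y)
  rw [show y + (x - y) = x by abel] at h4
  rw [h4]
  constructor
  · intro e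
    have : h • x = h • (x - y) + h • y := by rw [← smul_add]; congr 1; abel
    rw [this, e, hy]; abel
  · intro e
    rw [smul_sub, e, hy]; abel

lemma E.key' (hb : Bin H V) {a : H} (ha : E V a) {u : V} (hu : u ≠ 0) (hD : u ∈ D V a)
    (x : V) : R H x (x + u) ↔ a • x = x + u := by
  obtain ⟨y, hy⟩ := mem_D.mp hD
  exact ha.key hb hu hy x

lemma E.uniq (hb : Bin H V) {a b : H} (ha : E V a) (hb' : E V b) {u : V} (hu : u ≠ 0)
    (hDa : u ∈ D V a) (hDb : u ∈ D V b) : a = b := by
  obtain ⟨y, hy⟩ := mem_D.mp hDa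
  have hby : b • y = y + u := (hb'.key' hb hu hDb y).mp ⟨a, hy⟩
  have hyF : y ∉ F V a := by
    intro hc
    rw [mem_F, hy] at hc
    exact hu (by simpa using hc)
  refine (ha.eq_of (fun v hv => ?_) hyF (by rw [hby, hy])).symm
  have h1 : a • (y + v) = (y + v) + u := by rw [smul_add, hy, mem_F.mp hv]; abel
  have h2 : b • (y + v) = (y + v) + u := (hb'.key' hb hu hDb _).mp ⟨a, h1⟩
  rw [smul_add, hby] at h2
  have : y + u + b • v = y + u + v := by rw [h2]; abel
  exact add_left_cancel this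

omit [Finite V] [FaithfulSMul H V] in
lemma F_conj (g a : H) (v : V) : g • v ∈ F V (g * a * g⁻¹) ↔ v ∈ F V a := by
  rw [mem_F, mem_F, mul_smul, mul_smul, inv_smul_smul]
  exact smul_left_cancel_iff g

omit [Finite V] [FaithfulSMul H V] in
lemma D_conj (g a : H) (v : V) : g • v ∈ D V (g * a * g⁻¹) ↔ v ∈ D V a := by
  rw [mem_D, mem_D]
  constructor
  · rintro ⟨y, hy⟩
    refine ⟨g⁻¹ • y, ?_⟩
    have := congrArg (fun z => g⁻¹ • z) hy
    simp only [mul_smul, smul_add, inv_smul_smul] at this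
    exact this
  · rintro ⟨y, hy⟩
    refine ⟨g • y, ?_⟩
    rw [mul_smul, mul_smul, inv_smul_smul, hy, smul_add]

omit [Finite V] in
lemma E.conj {a : H} (ha : E V a) (g : H) : E V (g * a * g⁻¹) := by
  refine ⟨fun h => ha.1 ?_, fun h hh hle v hv => ?_⟩
  · have : g * a = g := by
      have := congrArg (· * g) h
      simpa using this
    simpa using this
  · have h1 : F V a ≤ F V (g⁻¹ * h * g) := by
      intro w hw
      have := hle ((F_conj g a w).mpr hw)
      have e := (F_conj g⁻¹ h (g • w)).mpr this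
      simpa using e
    have h2 : g⁻¹ * h * g ≠ 1 := by
      intro e
      apply hh
      have : h = g * (g⁻¹ * h * g) * g⁻¹ := by group
      rw [this, e]; group
    have h3 := ha.2 _ h2 h1
    have h4 : g⁻¹ • v ∈ F V (g⁻¹ * h * g) := by
      have e := (F_conj g⁻¹ h v).mpr hv
      simpa using e
    have h5 := (F_conj g a _).mpr (h3 h4)
    simpa using h5

/-- an element commuting relation: fixing a vector of `[V,a]` forces commuting with `a` -/
lemma E.comm_of_fix (hb : Bin H V) {a : H} (ha : E V a) {u : V} (hu : u ≠ 0) (hD : u ∈ D V a)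
    {g : H} (hg : g • u = u) : g * a * g⁻¹ = a := by
  refine (ha.conj g).uniq hb ha hu ?_ hD
  have := (D_conj g a u).mpr hD
  rwa [hg] at this

/-- `H` acts irreducibly -/
def Irr (H V : Type*) [AddCommGroup V] [Group H] [DistribMulAction H V] : Prop :=
  ∀ U : AddSubgroup V, (∀ (h : H) (v : V), v ∈ U → h • v ∈ U) → U = ⊥ ∨ U = ⊤

/-- vectors fixed by all `E`-elements vanish -/
lemma eq_zero_of_fixE [Finite H] (hirr : Irr H V) {a : H} (ha : a ≠ 1) {v : V}
    (hv : ∀ b : H, E V b → b • v = v) : v = 0 := by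
  let U : AddSubgroup V :=
    { carrier := {v | ∀ b : H, E V b → b • v = v}
      zero_mem' := fun b _ => smul_zero b
      add_mem' := fun {x y} hx hy b hb => by rw [smul_add, hx b hb, hy b hb]
      neg_mem' := fun {x} hx b hb => by rw [smul_neg, hx b hb] }
  have hU : ∀ (h : H) (v : V), v ∈ U → h • v ∈ U := by
    intro h v hv b hb
    have h1 : E V (h⁻¹ * b * h) := by simpa using hb.conj h⁻¹
    have h2 := hv _ h1
    rw [mul_smul, mul_smul, inv_smul_eq_iff] at h2
    exact h2
  rcases hirr U hU with h | h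
  · have : v ∈ U := hv
    rw [h] at this
    simpa using this
  · exfalso
    obtain ⟨b, hb, -⟩ := exists_E (V := V) ha
    refine hb.1 (eq_one_of_fix (V := V) fun w => ?_)
    have : w ∈ U := by rw [h]; trivial
    exact this b hb

/-- the span of the `[V,a]` is everything -/
lemma iSup_D [Finite H] (hirr : Irr H V) {a : H} (ha : a ≠ 1) :
    (⨆ b : {b : H // E V b}, D V b.1) = ⊤ := by
  have hU : ∀ (h : H) (v : V), v ∈ (⨆ b : {b : H // E V b}, D V b.1) →
      h • v ∈ (⨆ b : {b : H // E V b}, D V b.1) := by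
    intro h v hv
    induction hv using AddSubgroup.iSup_induction' with
    | hp b x hx =>
      exact AddSubgroup.mem_iSup_of_mem (⟨h * b.1 * h⁻¹, b.2.conj h⟩ : {b : H // E V b})
        ((D_conj h b.1 x).mpr hx)
    | h1 => rw [smul_zero]; exact AddSubgroup.zero_mem _
    | hadd x y _ _ hx hy => rw [smul_add]; exact AddSubgroup.add_mem _ hx hy
  rcases hirr _ hU with h | h
  · exfalso
    obtain ⟨b, hb, -⟩ := exists_E (V := V) ha
    obtain ⟨x, hx⟩ := exists_not_mem (V := V) hb.1
    apply hx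
    have : b • x - x ∈ (⨆ b : {b : H // E V b}, D V b.1) :=
      AddSubgroup.mem_iSup_of_mem (⟨b, hb⟩ : {b : H // E V b}) (mem_D.mpr ⟨x, by abel⟩)
    rw [h, AddSubgroup.mem_bot, sub_eq_zero] at this
    exact this
  · exact h

/-- an element without non-zero fixed vector -/
lemma exists_fpf [Finite H] (hb : Bin H V) (hirr : Irr H V) {a : H} (ha : a ≠ 1) :
    ∃ h : H, F V h = ⊥ := by
  classical
  obtain ⟨h, -, hmin⟩ := Set.Finite.exists_minimalFor (fun a : H => Nat.card (F V a))
    (Set.univ : Set H) (Set.toFinite _) ⟨1, trivial⟩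
  refine ⟨h, ?_⟩
  by_contra hne
  -- some `b ∈ E` with `F h ⊄ F b`
  obtain ⟨v, hv, hv0⟩ : ∃ v ∈ F V h, v ≠ 0 := by
    by_contra hcon
    push Not at hcon
    exact hne ((AddSubgroup.eq_bot_iff_forall _).mpr hcon)
  obtain ⟨b, hbE, hbv⟩ : ∃ b : H, E V b ∧ b • v ≠ v := by
    by_contra hcon
    push Not at hcon
    exact hv0 (eq_zero_of_fixE hirr ha hcon)
  have hint : ∀ u, u ∈ D V h → u ∈ D V b → u = 0 := by
    intro u h1 h2
    by_contra hu
    obtain ⟨y, hy⟩ := mem_D.mp h1
    have h3 : b • y = y + u := (hbE.key' hb hu h2 y).mp ⟨h, hy⟩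
    have h4 : R H (y + v) (y + v + u) := ⟨h, by rw [smul_add, hy, mem_F.mp hv]; abel⟩
    have h5 := (hbE.key' hb hu h2 _).mp h4
    rw [smul_add, h3] at h5
    apply hbv
    have : y + u + b • v = y + u + v := by rw [h5]; abel
    exact add_left_cancel this
  have hF : F V (h⁻¹ * b) < F V h := by
    have hmem : ∀ x, x ∈ F V (h⁻¹ * b) → h • x = x ∧ b • x = x := by
      intro x hx
      rw [mem_F, mul_smul, inv_smul_eq_iff] at hx
      have e1 : h • x - x = 0 := hint _ (mem_D.mpr ⟨x, by abel⟩) (mem_D.mpr ⟨x, by rw [hx]; abel⟩)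
      have e2 := sub_eq_zero.mp e1
      exact ⟨e2, by rw [hx, e2]⟩
    refine lt_of_le_of_ne (fun x hx => (hmem x hx).1) fun e => hbv ?_
    have : v ∈ F V (h⁻¹ * b) := by rw [e]; exact hv
    exact (hmem v this).2
  have hlt : Nat.card (F V (h⁻¹ * b)) < Nat.card (F V h) := by
    refine lt_of_le_of_ne (Nat.card_le_card_of_injective _
      (AddSubgroup.inclusion_injective hF.le)) fun e => hF.ne ?_
    exact AddSubgroup.eq_of_le_of_card_ge hF.le e.ge
  exact absurd (hmin (j := h⁻¹ * b) trivial hlt.le) (not_le.mpr hlt)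

/-- every `u` is a difference `h x - x` -/
lemma exists_X [Finite H] (hb : Bin H V) (hirr : Irr H V) {a : H} (ha : a ≠ 1) (u : V) :
    ∃ x : V, R H x (x + u) := by
  obtain ⟨h, hh⟩ := exists_fpf hb hirr ha
  have h1 := card_mul (V := V) h
  rw [hh, AddSubgroup.card_bot, mul_one] at h1
  have h2 : D V h = ⊤ := AddSubgroup.eq_top_of_card_eq _ h1
  have : u ∈ D V h := by rw [h2]; trivial
  obtain ⟨y, hy⟩ := mem_D.mp this
  exact ⟨y, h, hy⟩

end E

end Cfsg.Agent.Lib.BinAff
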