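import Mathlib
import Cfsg.Agent.Lib.BinAff1

set_option linter.unusedSimpArgs false
set_option linter.unusedSectionVars false

/-!
# Binary affine groups, part 2: the non-orthogonality graph is connected
-/

namespace Cfsg.Agent.Lib.BinAff

variable {V : Type*} [AddCommGroup V] {H : Type*} [Group H] [DistribMulAction H V]

/-- standing hypotheses: binary, irreducible, faithful and no regular orbit -/
structure Hyp (H V : Type*) [AddCommGroup V] [Group H] [DistribMulAction H V] : Prop where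
  bin : Bin H V
  irr : Irr H V
  st : ∀ v : V, ∃ h : H, h ≠ 1 ∧ h • v = v
  nt : ∃ v : V, v ≠ 0

/-- non-orthogonal -/
def N (V : Type*) [AddCommGroup V] {H : Type*} [Group H] [DistribMulAction H V] (a b : H) : Prop :=
  ∀ u ∈ D V a, u ∈ F V b → u = 0

/-- symmetry of orthogonality -/
def Sy (H V : Type*) [AddCommGroup V] [Group H] [DistribMulAction H V] : Prop :=
  ∀ a b : H, E V a → E V b → ∀ u, u ≠ 0 → u ∈ D V a → u ∈ F V b → D V b ≤ F V a

section
variable [Finite V] [FaithfulSMul H V]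

lemma Hyp.ne (hy : Hyp H V) : ∃ a : H, a ≠ 1 := by
  obtain ⟨h, hh, -⟩ := hy.st 0
  exact ⟨h, hh⟩

lemma Hyp.exE [Finite H] (hy : Hyp H V) : ∃ a : H, E V a := by
  obtain ⟨a, ha⟩ := hy.ne
  obtain ⟨b, hb, -⟩ := exists_E (V := V) ha
  exact ⟨b, hb⟩

lemma E.exD {a : H} (ha : E V a) : ∃ u ∈ D V a, u ≠ 0 := by
  obtain ⟨x, hx⟩ := exists_not_mem (V := V) ha.1
  refine ⟨a • x - x, mem_D.mpr ⟨x, by abel⟩, fun h => hx ?_⟩
  exact sub_eq_zero.mp h

lemma E.neg (hb : Bin H V) {a : H} (ha : E V a) {u : V} (hu : u ∈ D V a) : a • u = -u := by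
  obtain ⟨y, hy⟩ := mem_D.mp hu
  have h1 : a • a • y = y := by rw [← mul_smul, ha.sq hb, one_smul]
  rw [hy, smul_add, hy] at h1
  have : y + (u + a • u) = y + 0 := by rw [add_zero]; nth_rewrite 2 [← h1]; abel
  exact (neg_eq_of_add_eq_zero_right (add_left_cancel this)).symm

lemma N.symm (hS : Sy H V) {a b : H} (ha : E V a) (hb : E V b) (h : N V a b) : N V b a := by
  intro v hv hvF
  by_contra hne
  have h1 := hS b a hb ha v hne hv hvF
  obtain ⟨u, hu, hu0⟩ := ha.exD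
  exact hu0 (h u hu (h1 hu))

lemma not_N (hS : Sy H V) {a b : H} (ha : E V a) (hb : E V b) (h : ¬ N V a b) :
    D V b ≤ F V a ∧ D V a ≤ F V b := by
  have h' : ¬ N V b a := fun h2 => h (h2.symm hS hb ha)
  unfold N at h h'
  push Not at h h'
  obtain ⟨u, hu, huF, hu0⟩ := h
  obtain ⟨v, hv, hvF, hv0⟩ := h'
  exact ⟨hS a b ha hb u hu0 hu huF, hS b a hb ha v hv0 hv hvF⟩

lemma N.card [Finite H] (hS : Sy H V) {a b : H} (ha : E V a) (hb : E V b) (h : N V a b) :
    Nat.card (D V a) = Nat.card (D V b) := by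
  have key : ∀ {a b : H}, N V a b → Nat.card (D V a) ≤ Nat.card (D V b) := by
    intro a b h
    have h1 : Nat.card (D V a) * Nat.card (F V b) ≤ Nat.card V := by
      rw [← Nat.card_prod]
      refine Nat.card_le_card_of_injective (fun p : D V a × F V b => (p.1.1 + p.2.1 : V)) ?_
      rintro ⟨⟨x, hx⟩, ⟨y, hy⟩⟩ ⟨⟨x', hx'⟩, ⟨y', hy'⟩⟩ hxy
      have hxy' : x + y = x' + y' := hxy
      have e1 : x - x' = y' - y := by
        have : x - x' = (x + y) - y - x' := by abel
        rw [this, hxy']; abel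
      have e2 : x - x' = 0 := h _ (AddSubgroup.sub_mem _ hx hx')
        (by rw [e1]; exact AddSubgroup.sub_mem _ hy' hy)
      have e3 : x = x' := sub_eq_zero.mp e2
      subst e3
      have e4 : y = y' := add_left_cancel hxy'
      subst e4
      rfl
    rw [← card_mul (V := V) b] at h1
    exact Nat.le_of_mul_le_mul_right h1 Nat.card_pos
  exact le_antisymm (key h) (key (h.symm hS ha hb))

/-- data from a disconnection -/
lemma disc [Finite H] (hy : Hyp H V) (hS : Sy H V) (C : H → Prop) (hC : ∀ a, C a → E V a)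
    (hcl : ∀ a b, C a → E V b → N V a b → C b) {a0 b0 : H} (ha0 : C a0) (hb0 : E V b0)
    (hb0' : ¬ C b0) :
    ∃ U1 U2 : AddSubgroup V, (∀ c, C c → D V c ≤ U1 ∧ U2 ≤ F V c) ∧
      (∀ c, E V c → ¬ C c → D V c ≤ U2 ∧ U1 ≤ F V c) ∧ U1 ⊔ U2 = ⊤ ∧
      ∃ a g : H, C a ∧ ¬ C (g * a * g⁻¹) := by
  have hor : ∀ a b, C a → E V b → ¬ C b → D V b ≤ F V a ∧ D V a ≤ F V b := by
    intro a b ha hb hb'
    exact not_N hS (hC a ha) hb fun h => hb' (hcl a b ha hb h)
  have h1 : ∀ c, C c → D V c ≤ (⨆ a : {a : H // C a}, D V a.1) := fun c hc =>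
    le_iSup (fun a : {a : H // C a} => D V a.1) ⟨c, hc⟩
  have h2 : ∀ c, E V c → ¬ C c → D V c ≤ (⨆ a : {a : H // E V a ∧ ¬ C a}, D V a.1) :=
    fun c hc hc' => le_iSup (fun a : {a : H // E V a ∧ ¬ C a} => D V a.1) ⟨c, hc, hc'⟩
  refine ⟨⨆ a : {a : H // C a}, D V a.1, ⨆ a : {a : H // E V a ∧ ¬ C a}, D V a.1,
    fun c hc => ⟨h1 c hc, iSup_le fun a => (hor c a.1 hc a.2.1 a.2.2).1⟩,
    fun c hc hc' => ⟨h2 c hc hc', iSup_le fun a => (hor a.1 c a.2 hc hc').2⟩, ?_, ?_⟩
  · obtain ⟨a, ha⟩ := hy.ne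
    rw [eq_top_iff, ← iSup_D hy.irr ha]
    refine iSup_le fun b => ?_
    by_cases hb : C b.1
    · exact (h1 _ hb).trans le_sup_left
    · exact (h2 _ b.2 hb).trans le_sup_right
  · by_contra hcon
    push Not at hcon
    have hU : ∀ (h : H) (v : V), v ∈ (⨆ a : {a : H // C a}, D V a.1) →
        h • v ∈ (⨆ a : {a : H // C a}, D V a.1) := by
      intro h v hv
      induction hv using AddSubgroup.iSup_induction' with
      | hp b x hx => exact h1 _ (hcon b.1 h b.2) ((D_conj h b.1 x).mpr hx)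
      | h1 => rw [smul_zero]; exact AddSubgroup.zero_mem _
      | hadd x y _ _ hx hy => rw [smul_add]; exact AddSubgroup.add_mem _ hx hy
    rcases hy.irr _ hU with h | h
    · obtain ⟨u, hu, hu0⟩ := (hC a0 ha0).exD
      have := h1 _ ha0 hu
      rw [h] at this
      exact hu0 (by simpa using this)
    · refine hb0.1 (eq_one_of_fix (V := V) fun v => ?_)
      have hv : v ∈ (⨆ a : {a : H // C a}, D V a.1) := by rw [h]; trivial
      exact (iSup_le fun a : {a : H // C a} => (hor a.1 b0 a.2 hb0 hb0').2) hv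

end

end Cfsg.Agent.Lib.BinAff
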