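import Mathlib
import Cfsg.Agent.Lib.BinAff2

set_option linter.unusedSimpArgs false
set_option linter.unusedSectionVars false

/-!
# Binary affine groups, part 3: odd characteristic
-/

namespace Cfsg.Agent.Lib.BinAff

variable {V : Type*} [AddCommGroup V] {H : Type*} [Group H] [DistribMulAction H V]

/-- orthogonality -/
def P (H : Type*) {V : Type*} [AddCommGroup V] [Group H] [DistribMulAction H V] (x y : V) : Prop :=
  R H (y + x) (y - x)

section
variable [Finite V] [FaithfulSMul H V] [Finite H]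

omit [Finite V] in
lemma exists_half [Finite V] (h2 : ∀ v : V, v + v = 0 → v = 0) (v : V) : ∃ w : V, w + w = v := by
  have : Function.Injective (fun v : V => v + v) := by
    intro x y hxy
    have hxy' : x + x = y + y := hxy
    have := h2 (x - y) (by rw [show x - y + (x - y) = (x + x) - (y + y) by abel, hxy', sub_self])
    exact sub_eq_zero.mp this
  exact (Finite.injective_iff_surjective.mp this) v

lemma neg_mem (hy : Hyp H V) (h2 : ∀ v : V, v + v = 0 → v = 0) : ∃ h : H, ∀ v : V, h • v = -v := by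
  obtain ⟨a, ha⟩ := hy.ne
  have key : ∀ v : V, R H v (-v) := by
    intro v
    obtain ⟨x, hx⟩ := exists_X hy.bin hy.irr ha (-(v+v))
    obtain ⟨h, h1, h3, -⟩ := hy.bin.trn hx
    refine ⟨h, ?_⟩
    have e : h • v + h • v = -(v+v) := by
      rw [← smul_add]
      have : v + v = x - (x + -(v+v)) := by abel
      rw [this, smul_sub, h1, h3]; abel
    have : (h • v + v) + (h • v + v) = 0 := by
      rw [show (h • v + v) + (h • v + v) = (h • v + h • v) + (v + v) by abel, e]; abel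
    exact eq_neg_of_add_eq_zero_left (h2 _ this)
  obtain ⟨h, hh⟩ := hy.bin.ext (ι := V) id (fun v => -v) (fun v => key v) (fun v w => by
    have := key (v - w)
    have e : -v - -w = -(v - w) := by abel
    rw [e]; exact this)
  exact ⟨h, hh⟩

lemma P.symm (hy : Hyp H V) (h2 : ∀ v : V, v + v = 0 → v = 0) {x y : V} (h : P H x y) :
    P H y x := by
  obtain ⟨g, hg⟩ := h
  obtain ⟨n, hn⟩ := neg_mem hy h2
  refine ⟨n * g, ?_⟩
  rw [mul_smul, add_comm, hg, hn]; abel

lemma exists_refl (hy : Hyp H V) (h2 : ∀ v : V, v + v = 0 → v = 0) (x : V) :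
    ∃ h : H, h • x = -x ∧ ∀ c, P H x c ↔ c ∈ F V h := by
  obtain ⟨n, hn⟩ := neg_mem hy h2
  obtain ⟨h, h1, h3, h4⟩ := hy.bin.trn (x := x) (u := -x - x) ⟨n, by rw [hn]; abel⟩
  refine ⟨h, by rw [h1]; abel, fun c => ?_⟩
  rw [mem_F, ← h4 c]
  unfold P
  rw [show c + x = x + c by abel, show c - x = x + c + (-x - x) by abel]

lemma P.add (hy : Hyp H V) (h2 : ∀ v : V, v + v = 0 → v = 0) {x c d : V} (h : P H x c)
    (h' : P H x d) : P H x (c + d) := by
  obtain ⟨g, hg, hc⟩ := exists_refl hy h2 x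
  rw [hc] at h h' ⊢
  exact AddSubgroup.add_mem _ h h'

lemma P.sub (hy : Hyp H V) (h2 : ∀ v : V, v + v = 0 → v = 0) {x c d : V} (h : P H x c)
    (h' : P H x d) : P H x (c - d) := by
  obtain ⟨g, hg, hc⟩ := exists_refl hy h2 x
  rw [hc] at h h' ⊢
  exact AddSubgroup.sub_mem _ h h'

lemma P.self (h2 : ∀ v : V, v + v = 0 → v = 0) {x : V} (h : P H x x) : x = 0 := by
  unfold P at h
  rw [sub_self] at h
  exact h2 _ h.symm.zero

lemma P.one (hy : Hyp H V) (h2 : ∀ v : V, v + v = 0 → v = 0) {a : H} (ha : E V a) {u : V}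
    (hu : u ≠ 0) (hD : u ∈ D V a) (c : V) : P H u c ↔ c ∈ F V a := by
  have h1 : -u - u ∈ D V a := AddSubgroup.sub_mem _ (AddSubgroup.neg_mem _ hD) hD
  have h0 : -u - u ≠ 0 := by
    intro e
    apply hu
    apply h2
    have : u + u = -(-u - u) := by abel
    rw [this, e, neg_zero]
  unfold P
  have := ha.key' hy.bin h0 h1 (c + u)
  rw [show c + u + (-u - u) = c - u by abel] at this
  rw [this, smul_add, ha.neg hy.bin hD, mem_F]
  constructor
  · intro e
    have : a • c = (a • c + -u) + u := by abel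
    rw [this, e]; abel
  · intro e
    rw [e]; abel

lemma DF (hy : Hyp H V) (h2 : ∀ v : V, v + v = 0 → v = 0) {a : H} (ha : E V a) {u : V}
    (h : u ∈ D V a) (h' : u ∈ F V a) : u = 0 := by
  have e1 := ha.neg hy.bin h
  rw [mem_F.mp h'] at e1
  apply h2
  nth_rewrite 2 [e1]
  abel

lemma dec (hy : Hyp H V) (h2 : ∀ v : V, v + v = 0 → v = 0) {a : H} (ha : E V a) (v : V) :
    ∃ u ∈ D V a, ∃ w ∈ F V a, v = u + w := by
  obtain ⟨z, hz⟩ := exists_half h2 v
  have haa : ∀ v : V, a • a • v = v := fun v => by rw [← mul_smul, ha.sq hy.bin, one_smul]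
  refine ⟨z - a • z, ?_, z + a • z, ?_, by rw [← hz]; abel⟩
  · have : z - a • z = -(a • z - z) := by abel
    rw [this]
    exact AddSubgroup.neg_mem _ (mem_D.mpr ⟨z, by abel⟩)
  · rw [mem_F, smul_add, haa, add_comm]

lemma sy_odd (hy : Hyp H V) (h2 : ∀ v : V, v + v = 0 → v = 0) : Sy H V := by
  intro a b ha hb u hu huD huF v hv
  by_cases hv0 : v = 0
  · rw [hv0]; exact AddSubgroup.zero_mem _
  · have h1 : P H v u := (P.one hy h2 hb hv0 hv u).mpr huF
    exact (P.one hy h2 ha hu huD v).mp (h1.symm hy h2)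

/-- connectivity -/
lemma conn_odd (hy : Hyp H V) (h2 : ∀ v : V, v + v = 0 → v = 0) (C : H → Prop)
    (hC : ∀ a, C a → E V a) (hcl : ∀ a b, C a → E V b → N V a b → C b) {a0 : H} (ha0 : C a0)
    {b : H} (hb : E V b) : C b := by
  by_contra hb'
  obtain ⟨U1, U2, hU1, hU2, hU, a, g, ha, hga⟩ := disc hy (sy_odd hy h2) C hC hcl ha0 hb hb'
  have hgE : E V (g * a * g⁻¹) := (hC a ha).conj g
  obtain ⟨α, hα, hα0⟩ := (hC a ha).exD
  have hβ : g • α ∈ D V (g * a * g⁻¹) := (D_conj g a α).mpr hα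
  have hα1 : α ∈ U1 := (hU1 a ha).1 hα
  have hβ2 : g • α ∈ U2 := (hU2 _ hgE hga).1 hβ
  -- nothing nonzero in `U1 ∩ U2`
  have hint : ∀ v, v ∈ U1 → v ∈ U2 → v = 0 := by
    intro v h1 h3
    refine eq_zero_of_fixE hy.irr (hC a ha).1 fun t ht => ?_
    by_cases hCt : C t
    · exact (hU1 t hCt).2 h3
    · exact (hU2 t ht hCt).2 h1
  have hr : α - g • α ≠ 0 := by
    intro e
    have e' := sub_eq_zero.mp e
    exact hα0 (hint α hα1 (by rw [e']; exact hβ2))
  obtain ⟨h, h3, h4⟩ := exists_refl hy h2 (α - g • α)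
  have hne : h ≠ 1 := by
    rintro rfl
    rw [one_smul] at h3
    apply hr
    apply h2
    nth_rewrite 2 [h3]; abel
  obtain ⟨t, ht, hle⟩ := exists_E (V := V) hne
  have h5 : P H (α - g • α) (α + g • α) := by
    unfold P
    rw [show α + g • α + (α - g • α) = α + α by abel,
      show α + g • α - (α - g • α) = g • α + g • α by abel]
    exact ⟨g, smul_add _ _ _⟩
  have h6 : α + g • α ∈ F V t := hle ((h4 _).mp h5)
  have h7 : α - g • α ∈ F V t := by
    by_cases hCt : C t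
    · have h8 := (hU1 t hCt).2 hβ2
      have h9 := AddSubgroup.sub_mem _ (AddSubgroup.sub_mem _ h6 h8) h8
      rwa [show α + g • α - g • α - g • α = α - g • α by abel] at h9
    · have h8 := (hU2 t ht hCt).2 hα1
      have h9 := AddSubgroup.sub_mem _ (AddSubgroup.add_mem _ h8 h8) h6
      rwa [show α + α - (α + g • α) = α - g • α by abel] at h9
  obtain ⟨w, hw, hw0⟩ := ht.exD
  have h8 := (P.one hy h2 ht hw0 hw _).mpr h7
  exact hw0 (DF hy h2 ht hw (hle ((h4 _).mp (h8.symm hy h2))))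

lemma card_D_odd (hy : Hyp H V) (h2 : ∀ v : V, v + v = 0 → v = 0) {a b : H} (ha : E V a)
    (hb : E V b) : Nat.card (D V a) = Nat.card (D V b) :=
  (conn_odd hy h2 (fun c => E V c ∧ Nat.card (D V a) = Nat.card (D V c)) (fun _ h => h.1)
    (fun _ _ hc hd hcd => ⟨hd, hc.2.trans (hcd.card (sy_odd hy h2) hc.1 hd)⟩) ⟨ha, rfl⟩ hb).2

/-- decomposition with respect to two orthogonal elements -/
lemma dec2 (hy : Hyp H V) (h2 : ∀ v : V, v + v = 0 → v = 0) {s t : H} (hs : E V s)
    (ht : E V t) (hts : D V t ≤ F V s) (v : V) :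
    ∃ u ∈ D V s, ∃ w ∈ D V t, ∃ z ∈ F V s ⊓ F V t, v = u + w + z := by
  obtain ⟨u, hu, v', hv', rfl⟩ := dec hy h2 hs v
  obtain ⟨w, hw, z, hz, rfl⟩ := dec hy h2 ht v'
  refine ⟨u, hu, w, hw, z, ⟨?_, hz⟩, by abel⟩
  have := AddSubgroup.sub_mem _ hv' (hts hw)
  rwa [show w + z - w = z by abel] at this

lemma P.one' (hy : Hyp H V) (h2 : ∀ v : V, v + v = 0 → v = 0) {a : H} (ha : E V a) {u : V}
    (hD : u ∈ D V a) {c : V} (hc : c ∈ F V a) : P H u c := by
  by_cases hu : u = 0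
  · subst hu
    unfold P
    rw [add_zero, sub_zero]
    exact R.refl _
  · exact (P.one hy h2 ha hu hD c).mpr hc

/-- an element of `[V,c]` with `F s ∩ F t ≤ F c` lies in `D s + D t` -/
lemma dec3 (hy : Hyp H V) (h2 : ∀ v : V, v + v = 0 → v = 0) {s t c : H} (hs : E V s)
    (ht : E V t) (hc : E V c) (hts : D V t ≤ F V s) (hle : F V s ⊓ F V t ≤ F V c) {v : V}
    (hv : v ∈ D V c) : ∃ u ∈ D V s, ∃ w ∈ D V t, v = u + w := by
  obtain ⟨u, hu, w, hw, z, hz, rfl⟩ := dec2 hy h2 hs ht hts v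
  have h1 : P H z (u + w + z) := (P.one' hy h2 hc hv (hle hz)).symm hy h2
  have h3 : P H z u := (P.one' hy h2 hs hu hz.1).symm hy h2
  have h4 : P H z w := (P.one' hy h2 ht hw hz.2).symm hy h2
  have h5 := P.sub hy h2 (P.sub hy h2 h1 h3) h4
  rw [show u + w + z - u - w = z by abel] at h5
  have h6 := P.self h2 h5
  subst h6
  exact ⟨u, hu, w, hw, by abel⟩

lemma one_lt_D {a : H} (ha : E V a) : 1 < Nat.card (D V a) := by
  obtain ⟨u, hu, hu0⟩ := ha.exD
  by_contra hcon
  have h1 : Nat.card (D V a) = 1 := le_antisymm (not_lt.mp hcon) Nat.card_pos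
  rw [AddSubgroup.card_eq_one] at h1
  rw [h1] at hu
  exact hu0 (by simpa using hu)

lemma claimA (hy : Hyp H V) (h2 : ∀ v : V, v + v = 0 → v = 0) {s t r : H} (hs : E V s)
    (ht : E V t) (hr : E V r) (hst : ¬ N V s t) (hrs : N V r s) (hrt : N V r t) :
    ∃ c : H, E V c ∧ N V c s ∧ N V c t ∧ F V s ⊓ F V t ≤ F V c := by
  have hS := sy_odd hy h2
  obtain ⟨hts, hst'⟩ := not_N hS hs ht hst
  obtain ⟨v, hv, hv0⟩ := hr.exD
  obtain ⟨u, hu, w, hw, z, hz, rfl⟩ := dec2 hy h2 hs ht hts v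
  have hu0 : u ≠ 0 := by
    rintro rfl
    exact hv0 (hrs _ hv (AddSubgroup.add_mem _ (AddSubgroup.add_mem _ (AddSubgroup.zero_mem _)
      (hts hw)) hz.1))
  have hw0 : w ≠ 0 := by
    rintro rfl
    exact hv0 (hrt _ hv (AddSubgroup.add_mem _ (AddSubgroup.add_mem _ (hst' hu)
      (AddSubgroup.zero_mem _)) hz.2))
  have huw : u + w ≠ 0 := by
    intro e
    have e1 : u = -w := eq_neg_of_add_eq_zero_left e
    exact hw0 (DF hy h2 ht hw (by
      have := AddSubgroup.neg_mem _ (hst' hu)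
      rwa [e1, neg_neg] at this))
  obtain ⟨h, h3, h4⟩ := exists_refl hy h2 (u + w)
  have hne : h ≠ 1 := by
    rintro rfl
    rw [one_smul] at h3
    apply huw
    apply h2
    nth_rewrite 2 [h3]; abel
  obtain ⟨c, hc, hle⟩ := exists_E (V := V) hne
  have h5 : F V s ⊓ F V t ≤ F V h := by
    intro y hy'
    rw [← h4]
    refine P.symm hy h2 (P.add hy h2 ?_ ?_)
    · exact (P.one' hy h2 hs hu hy'.1).symm hy h2
    · exact (P.one' hy h2 ht hw hy'.2).symm hy h2
  -- the perp of `u + w` is in neither `F s` nor `F t`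
  have key : ∀ {s t : H}, E V s → E V t → D V t ≤ F V s → D V s ≤ F V t → N V r s →
      (u + w ∈ D V s ⊔ D V t) → z ∈ F V s ⊓ F V t → ¬ F V h ≤ F V t := by
    intro s t hs ht hts hst' hrs _ hz hcon
    have h6 : ∀ y ∈ D V s ⊔ D V t, y ∈ F V r → y = 0 := by
      intro y hyy hy2
      obtain ⟨y1, hy1, y2, hy3, rfl⟩ := AddSubgroup.mem_sup.mp hyy
      have h7 : P H (y1 + y2) (u + w + z) := (P.one' hy h2 hr hv hy2).symm hy h2
      have h8 : P H (y1 + y2) z := by
        refine P.symm hy h2 (P.add hy h2 ?_ ?_)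
        · exact (P.one' hy h2 hs hy1 hz.1).symm hy h2
        · exact (P.one' hy h2 ht hy3 hz.2).symm hy h2
      have h9 := P.sub hy h2 h7 h8
      rw [show u + w + z - z = u + w by abel] at h9
      have h10 : y1 + y2 ∈ F V t := hcon ((h4 _).mp (h9.symm hy h2))
      have h11 : y2 ∈ F V t := by
        have := AddSubgroup.sub_mem _ h10 (hst' hy1)
        rwa [show y1 + y2 - y1 = y2 by abel] at this
      have h12 := DF hy h2 ht hy3 h11
      subst h12
      rw [add_zero] at hy2 ⊢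
      exact (hrs.symm hS hr hs) _ hy1 hy2
    -- cardinalities
    have hc1 : Nat.card (D V s) * Nat.card (D V t) * Nat.card (F V r) ≤ Nat.card V := by
      rw [← Nat.card_prod, ← Nat.card_prod]
      refine Nat.card_le_card_of_injective
        (fun p : (D V s × D V t) × F V r => (p.1.1.1 + p.1.2.1 + p.2.1 : V)) ?_
      rintro ⟨⟨⟨x, hx⟩, ⟨y, hy'⟩⟩, ⟨z, hz⟩⟩ ⟨⟨⟨x', hx'⟩, ⟨y', hy''⟩⟩, ⟨z', hz'⟩⟩ hxy
      have hxy' : x + y + z = x' + y' + z' := hxy
      have e1 : (x - x') + (y - y') = z' - z := by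
        have : (x - x') + (y - y') = (x + y + z) - z - x' - y' := by abel
        rw [this, hxy']; abel
      have e2 := h6 ((x - x') + (y - y')) (AddSubgroup.mem_sup.mpr
        ⟨_, AddSubgroup.sub_mem _ hx hx', _, AddSubgroup.sub_mem _ hy' hy'', rfl⟩)
        (by rw [e1]; exact AddSubgroup.sub_mem _ hz' hz)
      rw [e2] at e1
      have e3 : z' = z := sub_eq_zero.mp e1.symm
      have e4 : y - y' ∈ F V s := hts (AddSubgroup.sub_mem _ hy' hy'')
      have e5 : x - x' = 0 := by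
        refine DF hy h2 hs (AddSubgroup.sub_mem _ hx hx') ?_
        have : x - x' = -(y - y') := eq_neg_of_add_eq_zero_left e2
        rw [this]; exact AddSubgroup.neg_mem _ e4
      rw [e5, zero_add] at e2
      have e6 := sub_eq_zero.mp e2
      have e7 := sub_eq_zero.mp e5
      subst e3 e6 e7
      rfl
    rw [← card_mul (V := V) r, card_D_odd hy h2 hs hr] at hc1
    have hc2 := Nat.le_of_mul_le_mul_right hc1 Nat.card_pos
    have hc3 : Nat.card (D V r) * Nat.card (D V t) ≤ Nat.card (D V r) * 1 := by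
      rw [mul_one]; exact hc2
    have hc4 := Nat.le_of_mul_le_mul_left hc3 Nat.card_pos
    exact absurd (one_lt_D ht) (not_lt.mpr hc4)
  have hsub : u + w ∈ D V s ⊔ D V t := AddSubgroup.mem_sup.mpr ⟨u, hu, w, hw, rfl⟩
  have k1 : ¬ F V h ≤ F V t := key hs ht hts hst' hrs hsub hz
  have k2 : ¬ F V h ≤ F V s := key ht hs hst' hts hrt (by rw [sup_comm]; exact hsub) ⟨hz.2, hz.1⟩
  refine ⟨c, hc, ?_, ?_, h5.trans hle⟩
  · by_contra hcon
    obtain ⟨h6, h7⟩ := not_N hS hc hs hcon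
    -- `D c ≤ F s`, so `D c ≤ D t`
    obtain ⟨x, hx, hx0⟩ := hc.exD
    obtain ⟨x1, hx1, x2, hx2, rfl⟩ := dec3 hy h2 hs ht hc hts (h5.trans hle) hx
    have h8 : x1 ∈ F V s := by
      have := AddSubgroup.sub_mem _ (h7 hx) (hts hx2)
      rwa [show x1 + x2 - x2 = x1 by abel] at this
    have h9 := DF hy h2 hs hx1 h8
    subst h9
    rw [zero_add] at hx hx0
    have := hc.uniq hy.bin ht hx0 hx hx2
    subst this
    exact k1 hle
  · by_contra hcon
    obtain ⟨h6, h7⟩ := not_N hS hc ht hcon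
    obtain ⟨x, hx, hx0⟩ := hc.exD
    obtain ⟨x1, hx1, x2, hx2, rfl⟩ := dec3 hy h2 hs ht hc hts (h5.trans hle) hx
    have h8 : x2 ∈ F V t := by
      have := AddSubgroup.sub_mem _ (h7 hx) (hst' hx1)
      rwa [show x1 + x2 - x1 = x2 by abel] at this
    have h9 := DF hy h2 ht hx2 h8
    subst h9
    rw [add_zero] at hx hx0
    have := hc.uniq hy.bin hs hx0 hx hx1
    subst this
    exact k2 hle

lemma claimB (hy : Hyp H V) (h2 : ∀ v : V, v + v = 0 → v = 0) {s t : H} (hs : E V s)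
    (ht : E V t) (hst : ¬ N V s t) : ∃ r : H, E V r ∧ N V r s ∧ N V r t := by
  have hS := sy_odd hy h2
  have hself : ∀ {a : H}, E V a → N V a a := fun ha u h h' => DF hy h2 ha h h'
  have key := (conn_odd hy h2 (fun c => E V c ∧ (¬ N V s c → ∃ r : H, E V r ∧ N V r s ∧ N V r c))
    (fun _ h => h.1) ?_ ⟨hs, fun h => absurd (hself hs) h⟩ ht).2
  · exact key hst
  · rintro b t' ⟨hb, hb'⟩ ht' hbt
    refine ⟨ht', fun hst' => ?_⟩
    by_cases hsb : N V s b
    · exact ⟨b, hb, hsb.symm hS hs hb, hbt⟩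
    obtain ⟨r, hr, hrs, hrb⟩ := hb' hsb
    obtain ⟨c, hc, hcs, hcb, hle⟩ := claimA hy h2 hs hb hr hsb hrs hrb
    by_cases hct : N V c t'
    · exact ⟨c, hc, hcs, hct⟩
    exfalso
    obtain ⟨h3, h4⟩ := not_N hS hc ht' hct
    obtain ⟨h5, h6⟩ := not_N hS hs ht' hst'
    obtain ⟨h7, h8⟩ := not_N hS hs hb hsb
    obtain ⟨x, hx, hx0⟩ := hc.exD
    obtain ⟨x1, hx1, x2, hx2, rfl⟩ := dec3 hy h2 hs hb hc h7 hle hx
    have h9 : x2 ∈ F V t' := by
      have := AddSubgroup.sub_mem _ (h4 hx) (h6 hx1)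
      rwa [show x1 + x2 - x1 = x2 by abel] at this
    have h10 := hbt _ hx2 h9
    subst h10
    rw [add_zero] at hx hx0
    exact hx0 (hcb _ hx (h8 hx1))

/-- every vector lies in some `[V,a]` -/
lemma good (hy : Hyp H V) (h2 : ∀ v : V, v + v = 0 → v = 0) {x : V} (hx : x ≠ 0) :
    ∃ a : H, E V a ∧ x ∈ D V a := by
  classical
  have hS := sy_odd hy h2
  by_contra hbad
  obtain ⟨x, ⟨hx, hbad⟩, hmax⟩ := Set.Finite.exists_maximalFor
    (fun x : V => Nat.card {c : V // P H x c})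
    {x : V | x ≠ 0 ∧ ¬ ∃ a : H, E V a ∧ x ∈ D V a} (Set.toFinite _) ⟨x, hx, hbad⟩
  obtain ⟨h, h3, h4⟩ := exists_refl hy h2 x
  have hne : h ≠ 1 := by
    rintro rfl
    rw [one_smul] at h3
    apply hx
    apply h2
    nth_rewrite 2 [h3]; abel
  obtain ⟨t, ht, hle⟩ := exists_E (V := V) hne
  obtain ⟨u, hu, w, hw, rfl⟩ := dec hy h2 ht x
  -- nothing of `D t` is orthogonal to `u + w`
  have hDt : ∀ y ∈ D V t, P H (u + w) y → y = 0 := fun y h5 h6 =>
    DF hy h2 ht h5 (hle ((h4 _).mp h6))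
  have hDt' : ∀ {k : H}, E V k → u + w ∈ F V k → F V h ≤ F V k → False := by
    intro k hk h5 h6
    obtain ⟨y, hy1, hy0⟩ := hk.exD
    have h7 : P H (u + w) y := (P.one' hy h2 hk hy1 h5).symm hy h2
    exact hy0 (DF hy h2 hk hy1 (h6 ((h4 _).mp h7)))
  have hu0 : u ≠ 0 := by
    rintro rfl
    exact hDt' ht (by rw [zero_add]; exact hw) hle
  have hw0 : w ≠ 0 := by
    rintro rfl
    exact hbad ⟨t, ht, by rw [add_zero]; exact hu⟩
  -- `w` is good
  have h5 : ∀ y, P H (u + w) y → P H w y := by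
    intro y h6
    have h7 : P H u y := P.one' hy h2 ht hu (hle ((h4 _).mp h6))
    have h8 := P.sub hy h2 (h6.symm hy h2) (h7.symm hy h2)
    rw [show u + w - u = w by abel] at h8
    exact h8.symm hy h2
  obtain ⟨s, hs, hws⟩ : ∃ s : H, E V s ∧ w ∈ D V s := by
    by_contra hcon
    have h6 : Nat.card {c : V // P H w c} ≤ Nat.card {c : V // P H (u + w) c} :=
      hmax (j := w) ⟨hw0, hcon⟩ (Nat.card_le_card_of_injective
        (fun c : {c : V // P H (u + w) c} => (⟨c.1, h5 _ c.2⟩ : {c : V // P H w c}))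
        (fun a b hab => Subtype.ext (congrArg (fun z : {c : V // P H w c} => z.1) hab)))
    have h7 : Function.Injective (fun c : {c : V // P H (u + w) c} =>
        (⟨c.1, h5 _ c.2⟩ : {c : V // P H w c})) :=
      fun a b hab => Subtype.ext (congrArg (fun z : {c : V // P H w c} => z.1) hab)
    have h8 : Function.Surjective (fun c : {c : V // P H (u + w) c} =>
        (⟨c.1, h5 _ c.2⟩ : {c : V // P H w c})) := by
      refine ((Nat.bijective_iff_injective_and_card _).mpr ⟨h7, ?_⟩).2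
      exact le_antisymm (Nat.card_le_card_of_injective _ h7) h6
    obtain ⟨y, hy1, hy0⟩ := ht.exD
    obtain ⟨⟨y', hy'⟩, hyy⟩ := h8 ⟨y, (P.one' hy h2 ht hy1 hw).symm hy h2⟩
    have h9 : y' = y := congrArg (fun z : {c : V // P H w c} => z.1) hyy
    subst h9
    exact hy0 (hDt _ hy1 hy')
  have hts : D V t ≤ F V s := hS s t hs ht w hw0 hws hw
  have hst : ¬ N V s t := fun h => hw0 (h w hws hw)
  have hst' : D V s ≤ F V t := (not_N hS hs ht hst).2
  have hR : F V h = F V s ⊓ F V t := by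
    apply le_antisymm
    · intro y hy1
      exact ⟨(P.one hy h2 hs hw0 hws y).mp (h5 y ((h4 _).mpr hy1)), hle hy1⟩
    · intro y hy1
      rw [← h4]
      refine P.symm hy h2 (P.add hy h2 ?_ ?_)
      · exact (P.one' hy h2 ht hu hy1.2).symm hy h2
      · exact (P.one' hy h2 hs hws hy1.1).symm hy h2
  -- the pointwise stabilizer of `F h` and `x` is trivial
  have hst1 : ∀ k : H, F V h ≤ F V k → k • (u + w) = u + w → k = 1 := by
    intro k hk1 hk2
    by_contra hk
    obtain ⟨t', ht', hle'⟩ := exists_E (V := V) hk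
    exact hDt' ht' (hle' hk2) (hk1.trans hle')
  have hsq : ∀ k : H, F V h ≤ F V k → k * k = 1 := by
    intro k hk
    obtain ⟨h', h6, h7, h8⟩ := hy.bin.swap1 (F V h : Set V) k (fun c hc => hk hc) (u + w)
    have h9 : k⁻¹ * h' = 1 := by
      refine hst1 _ (fun c hc => ?_) (by rw [mul_smul, h7, inv_smul_smul])
      rw [mem_F, mul_smul, h6 c hc, inv_smul_eq_iff]
      exact (hk hc).symm
    have h10 : h' = k := (inv_mul_eq_one.mp h9).symm
    subst h10
    refine hst1 _ (fun c hc => ?_) (by rw [mul_smul, h8])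
    rw [mem_F, mul_smul, h6 c hc, h6 c hc]
  obtain ⟨r, hr, hrs, hrt⟩ := claimB hy h2 hs ht hst
  obtain ⟨c, hc, hcs, hct, hcle⟩ := claimA hy h2 hs ht hr hst hrs hrt
  have hcF : F V h ≤ F V c := by rw [hR]; exact hcle
  have hsF : F V h ≤ F V s := by rw [hR]; exact inf_le_left
  have hcomm : c * s * c⁻¹ = s := by
    have e1 := hsq c hcF
    have e2 := hsq s hsF
    have e3 := hsq (c * s) (fun v hv => by
      rw [mem_F, mul_smul, mem_F.mp (hsF hv), mem_F.mp (hcF hv)])
    have e4 : c⁻¹ = c := inv_eq_of_mul_eq_one_right e1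
    have e5 : s⁻¹ = s := inv_eq_of_mul_eq_one_right e2
    rw [e4]
    have : c * s * c * s = 1 := by rw [← e3]; group
    rw [← e5]
    exact (mul_eq_one_iff_eq_inv.mp (by rw [e5]; exact this))
  obtain ⟨v, hv, hv0⟩ := hs.exD
  have h10 : c • v ∈ D V s := by
    have := (D_conj c s v).mpr hv
    rwa [hcomm] at this
  by_cases h11 : c • v = v
  · exact hv0 ((hcs.symm hS hc hs) v hv h11)
  · have h12 : c • v - v ≠ 0 := sub_ne_zero.mpr h11
    have := hc.uniq hy.bin hs h12 (mem_D.mpr ⟨v, by abel⟩) (AddSubgroup.sub_mem _ h10 hv)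
    subst this
    exact hv0 (hct v hv (hst' hv))

/-- conclusion of the first part: a plane -/
def Plane (H V : Type*) [AddCommGroup V] [Group H] [DistribMulAction H V] : Prop :=
  ∃ q : ℕ, Nat.card V = q * q ∧ ∀ a : H, E V a → Nat.card (D V a) = q ∧
    ∃ a' : H, E V a' ∧ F V a = D V a' ∧ F V a' = D V a

lemma prime_dvd_card {p : ℕ} (hp : p.Prime) (hpV : ∀ v : V, p • v = 0) {W : AddSubgroup V}
    {w : V} (hw : w ∈ W) (hw0 : w ≠ 0) : p ∣ Nat.card W := by
  have h1 : addOrderOf w = p := by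
    have := (Nat.dvd_prime hp).mp (addOrderOf_dvd_of_nsmul_eq_zero (hpV w))
    rcases this with h | h
    · exact absurd (AddMonoid.addOrderOf_eq_one_iff.mp h) hw0
    · exact h
  have h3 : addOrderOf (⟨w, hw⟩ : W) = p := by
    rw [← h1]
    exact (AddSubgroup.addOrderOf_mk w hw)
  rw [← h3]
  exact addOrderOf_dvd_natCard _

lemma card_inf_bot {A B : AddSubgroup V} (h : ∀ v, v ∈ A → v ∈ B → v = 0) :
    Nat.card A * Nat.card B ≤ Nat.card V := by
  rw [← Nat.card_prod]
  refine Nat.card_le_card_of_injective (fun p : A × B => (p.1.1 + p.2.1 : V)) ?_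
  rintro ⟨⟨x, hx⟩, ⟨y, hy⟩⟩ ⟨⟨x', hx'⟩, ⟨y', hy'⟩⟩ hxy
  have hxy' : x + y = x' + y' := hxy
  have e1 : x - x' = y' - y := by
    have : x - x' = (x + y) - y - x' := by abel
    rw [this, hxy']; abel
  have e2 : x - x' = 0 := h _ (AddSubgroup.sub_mem _ hx hx')
    (by rw [e1]; exact AddSubgroup.sub_mem _ hy' hy)
  have e3 : x = x' := sub_eq_zero.mp e2
  subst e3
  have e4 : y = y' := add_left_cancel hxy'
  subst e4
  rfl

lemma card_F_le_odd {p : ℕ} (hp : p.Prime) (hpV : ∀ v : V, p • v = 0)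
    (hy : Hyp H V) (h2 : ∀ v : V, v + v = 0 → v = 0) {a : H} (ha : E V a) :
    Nat.card (F V a) ≤ Nat.card (D V a) := by
  classical
  by_contra hlt
  push Not at hlt
  have : Fact p.Prime := ⟨hp⟩
  have : Fintype V := Fintype.ofFinite V
  have hcF : ∀ b : H, E V b → Nat.card (F V b) = Nat.card (F V a) := by
    intro b hb
    have e1 := card_mul (V := V) a
    have e2 := card_mul (V := V) b
    rw [card_D_odd hy h2 hb ha, ← e1] at e2
    exact Nat.eq_of_mul_eq_mul_left Nat.card_pos e2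
  have hint : ∀ b c : H, E V b → E V c → ∃ w : V, w ≠ 0 ∧ w ∈ F V b ∧ w ∈ F V c := by
    intro b c hb hc
    by_contra hcon
    push Not at hcon
    have h1 := card_inf_bot (A := F V b) (B := F V c) (fun v h3 h4 => by
      by_contra h5
      exact hcon v h5 h3 h4)
    rw [hcF b hb, hcF c hc, ← card_mul (V := V) a] at h1
    exact absurd (Nat.le_of_mul_le_mul_right h1 Nat.card_pos) (not_le.mpr hlt)
  have hper : ∀ x : V, ∃ b : H, E V b ∧ ∀ c ∈ F V b, P H x c := by
    intro x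
    by_cases hx : x = 0
    · exact ⟨a, ha, fun c _ => by
        subst hx
        unfold P
        rw [add_zero, sub_zero]
        exact R.refl _⟩
    · obtain ⟨b, hb, hxb⟩ := good hy h2 hx
      exact ⟨b, hb, fun c hc => P.one' hy h2 hb hxb hc⟩
  let A : Matrix V V (ZMod p) := fun x y => if P H x y then 1 else 0
  have hA2 : A * A = 0 := by
    ext x y
    rw [Matrix.mul_apply, Matrix.zero_apply]
    obtain ⟨h1, -, h3⟩ := exists_refl hy h2 x
    obtain ⟨h1', -, h3'⟩ := exists_refl hy h2 y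
    have e : ∀ z, A x z * A z y = if z ∈ F V h1 ⊓ F V h1' then 1 else 0 := by
      intro z
      have e1 : P H z y ↔ P H y z := ⟨fun h => h.symm hy h2, fun h => h.symm hy h2⟩
      have e2 : z ∈ F V h1 ⊓ F V h1' ↔ P H x z ∧ P H y z := by
        rw [AddSubgroup.mem_inf, h3, h3']
      show (if P H x z then (1 : ZMod p) else 0) * (if P H z y then (1 : ZMod p) else 0) = _
      by_cases f1 : P H x z
      · by_cases f2 : P H y z
        · rw [if_pos f1, if_pos (e1.mpr f2), if_pos (e2.mpr ⟨f1, f2⟩), one_mul]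
        · rw [if_neg (fun h => f2 (e1.mp h)), if_neg (fun h => f2 (e2.mp h).2), mul_zero]
      · rw [if_neg f1, if_neg (fun h => f1 (e2.mp h).1), zero_mul]
    rw [Finset.sum_congr rfl fun z _ => e z, Finset.sum_boole]
    obtain ⟨b, hb, hb'⟩ := hper x
    obtain ⟨c, hc, hc'⟩ := hper y
    obtain ⟨w, hw0, hw1, hw2⟩ := hint b c hb hc
    have h4 : w ∈ F V h1 ⊓ F V h1' :=
      ⟨(h3 w).mp (hb' w hw1), (h3' w).mp (hc' w hw2)⟩
    have h5 := prime_dvd_card hp hpV h4 hw0
    have h6 : (Finset.univ.filter fun z => z ∈ F V h1 ⊓ F V h1').card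
        = Nat.card (F V h1 ⊓ F V h1' : AddSubgroup V) := by
      rw [Nat.card_eq_fintype_card, Fintype.card_subtype]
    rw [h6]
    exact (ZMod.natCast_eq_zero_iff _ _).mpr h5
  have htr : A.trace = 1 := by
    unfold Matrix.trace
    rw [Finset.sum_eq_single (0 : V)]
    · show (if P H (0 : V) 0 then (1 : ZMod p) else 0) = 1
      rw [if_pos]
      unfold P
      rw [add_zero, sub_zero]
      exact R.refl _
    · intro b _ hb
      show (if P H b b then (1 : ZMod p) else 0) = 0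
      rw [if_neg]
      exact fun h => hb (P.self h2 h)
    · intro h
      exact absurd (Finset.mem_univ _) h
  have h7 := ZMod.trace_pow_card (p := p) A
  have h8 : A ^ p = 0 := by
    have hk : ∀ n : ℕ, 2 ≤ n → A ^ n = 0 := by
      intro n hn
      obtain ⟨k, rfl⟩ := Nat.exists_eq_add_of_le hn
      rw [pow_add, pow_two, hA2, zero_mul]
    exact hk p hp.two_le
  rw [h8, htr, Matrix.trace_zero, one_pow] at h7
  exact zero_ne_one h7

lemma plane_odd {p : ℕ} (hp : p.Prime) (hpV : ∀ v : V, p • v = 0)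
    (hy : Hyp H V) (h2 : ∀ v : V, v + v = 0 → v = 0) : Plane H V := by
  have hS := sy_odd hy h2
  obtain ⟨v, hv⟩ := hy.nt
  obtain ⟨h, hne, hhv⟩ := hy.st v
  obtain ⟨b, hb, hle⟩ := exists_E (V := V) hne
  have hvb : v ∈ F V b := hle hhv
  have hcF : ∀ a : H, E V a → Nat.card (F V b) = Nat.card (F V a) := by
    intro a ha
    have e1 := card_mul (V := V) a
    have e2 := card_mul (V := V) b
    rw [card_D_odd hy h2 hb ha, ← e1] at e2
    exact Nat.eq_of_mul_eq_mul_left Nat.card_pos e2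
  have hb1 : 1 < Nat.card (F V b) := by
    by_contra hcon
    have h1 : Nat.card (F V b) = 1 := le_antisymm (not_lt.mp hcon) Nat.card_pos
    rw [AddSubgroup.card_eq_one] at h1
    rw [h1] at hvb
    exact hv (by simpa using hvb)
  have main : ∀ a : H, E V a → ∃ a' : H, E V a' ∧ F V a = D V a' ∧ F V a' = D V a := by
    intro a ha
    obtain ⟨w, hw, hw0⟩ : ∃ w ∈ F V a, w ≠ 0 := by
      by_contra hcon
      push Not at hcon
      have : F V a = ⊥ := (AddSubgroup.eq_bot_iff_forall _).mpr hcon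
      rw [hcF a ha, this, AddSubgroup.card_bot] at hb1
      exact lt_irrefl _ hb1
    obtain ⟨a', ha', hwa'⟩ := good hy h2 hw0
    obtain ⟨h3, h4⟩ := not_N hS ha' ha fun h => hw0 (h w hwa' hw)
    refine ⟨a', ha', ?_, ?_⟩
    · refine (AddSubgroup.eq_of_le_of_card_ge h4 ?_).symm
      rw [card_D_odd hy h2 ha' ha]
      exact card_F_le_odd hp hpV hy h2 ha
    · refine (AddSubgroup.eq_of_le_of_card_ge h3 ?_).symm
      rw [card_D_odd hy h2 ha ha']
      exact card_F_le_odd hp hpV hy h2 ha'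
  refine ⟨Nat.card (D V b), ?_, fun a ha => ⟨card_D_odd hy h2 ha hb, main a ha⟩⟩
  obtain ⟨b', hb', h3, -⟩ := main b hb
  rw [← card_mul (V := V) b, h3, card_D_odd hy h2 hb' hb]

end

end Cfsg.Agent.Lib.BinAff
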