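import Mathlib
import Cfsg.Agent.Lib.BinAff3

set_option linter.unusedSimpArgs false
set_option linter.unusedSectionVars false

/-!
# Binary affine groups, part 4: characteristic 2
-/

namespace Cfsg.Agent.Lib.BinAff

variable {V : Type*} [AddCommGroup V] {H : Type*} [Group H] [DistribMulAction H V]

section
variable [Finite V] [FaithfulSMul H V] [Finite H]

lemma neg2 (h2 : ∀ v : V, v + v = 0) (v : V) : -v = v := by
  rw [neg_eq_iff_add_eq_zero]; exact h2 v

lemma DleF (hy : Hyp H V) (h2 : ∀ v : V, v + v = 0) {a : H} (ha : E V a) : D V a ≤ F V a := by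
  intro u hu
  rw [mem_F, ha.neg hy.bin hu, neg2 h2]

lemma sy_two (hy : Hyp H V) (h2 : ∀ v : V, v + v = 0) : Sy H V := by
  intro a b ha hb u hu huD huF
  by_cases hab : a = b
  · subst hab; exact DleF hy h2 ha
  · have hc : b * a * b⁻¹ = a := ha.comm_of_fix hy.bin hu huD huF
    intro v hv
    obtain ⟨y, hy'⟩ := mem_D.mp hv
    have h3 : b • (a • y - y) - (a • y - y) = 0 := by
      by_contra hne
      apply hab
      refine ha.uniq hy.bin hb hne (AddSubgroup.sub_mem _ ?_ ?_)
        (mem_D.mpr ⟨a • y - y, by abel⟩)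
      · have := (D_conj b a (a • y - y)).mpr (mem_D.mpr ⟨y, by abel⟩)
        rwa [hc] at this
      · exact mem_D.mpr ⟨y, by abel⟩
    have hcomm : b * a = a * b := by
      have := congrArg (· * b) hc
      simpa using this
    rw [mem_F]
    have e1 : v = b • y - y := by rw [hy']; abel
    have e2 : b • a • y = a • b • y := by rw [← mul_smul, hcomm, mul_smul]
    rw [smul_sub, e2] at h3
    have e3 : a • v = a • b • y - a • y := by rw [e1, smul_sub]
    rw [e3, e1]
    rw [sub_eq_zero] at h3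
    have : a • b • y = (a • b • y - b • y) + b • y := by abel
    rw [this, h3]; abel

lemma nocomm (hy : Hyp H V) (h2 : ∀ v : V, v + v = 0) {a b : H} {x α β : V}
    (ha : a • x = x + α) (hb : b • x = x + β) (hab : a • β = β) (hαβ : R H α β)
    (hne : α ≠ β) : False := by
  have h3 : R H x (x + (α + β)) := ⟨a * b, by rw [mul_smul, hb, smul_add, ha, hab]; abel⟩
  obtain ⟨h, h4, h5, h6⟩ := hy.bin.trn h3
  have e1 : h • (α - x) = α - x := by
    rw [← h6]
    have e : x + (α - x) = α := by abel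
    rw [e]
    have e' : α + (α + β) = β := by rw [← add_assoc, h2, zero_add]
    rw [e']; exact hαβ
  have e2 : h • α = α := by
    rw [← h6]
    have e' : x + α + (α + β) = x + β := by rw [add_assoc, ← add_assoc α α β, h2, zero_add]
    rw [e', ← ha, ← hb]
    exact ⟨b * a⁻¹, by rw [mul_smul, inv_smul_smul]⟩
  have e3 : h • x = x := by
    have : x = α - (α - x) := by abel
    rw [this, smul_sub, e1, e2]
  rw [e3] at h4
  have e4 : α + β = 0 := by simpa using h4.symm
  exact hne (by rw [← sub_eq_zero, sub_eq_add_neg, neg2 h2]; exact e4)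

lemma type_uniq (hy : Hyp H V) {a : H} (ha : E V a) {w w' : V} (hw : w ∈ F V a)
    (hd : w' - w ∈ D V a) (hR : R H w w') : w = w' := by
  by_contra hne
  have h0 : w' - w ≠ 0 := sub_ne_zero.mpr (Ne.symm hne)
  have := (ha.key' hy.bin h0 hd w).mp (by rw [show w + (w' - w) = w' by abel]; exact hR)
  rw [mem_F.mp hw] at this
  exact hne (by nth_rewrite 1 [this]; abel)

/-- connectivity -/
lemma conn_two (hy : Hyp H V) (h2 : ∀ v : V, v + v = 0) (C : H → Prop)
    (hC : ∀ a, C a → E V a) (hcl : ∀ a b, C a → E V b → N V a b → C b) {a0 : H} (ha0 : C a0)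
    {b : H} (hb : E V b) : C b := by
  by_contra hb'
  obtain ⟨U1, U2, hU1, hU2, hU, a, g, ha, hga⟩ := disc hy (sy_two hy h2) C hC hcl ha0 hb hb'
  have hgE : E V (g * a * g⁻¹) := (hC a ha).conj g
  obtain ⟨α, hα, hα0⟩ := (hC a ha).exD
  have hβ : g • α ∈ D V (g * a * g⁻¹) := (D_conj g a α).mpr hα
  have hα1 : α ∈ U1 := (hU1 a ha).1 hα
  have hβ2 : g • α ∈ U2 := (hU2 _ hgE hga).1 hβ
  have hint : ∀ v, v ∈ U1 → v ∈ U2 → v = 0 := by
    intro v h1 h3
    refine eq_zero_of_fixE hy.irr (hC a ha).1 fun t ht => ?_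
    by_cases hCt : C t
    · exact (hU1 t hCt).2 h3
    · exact (hU2 t ht hCt).2 h1
  obtain ⟨y, hy1⟩ := mem_D.mp hα
  obtain ⟨z, hz1⟩ := mem_D.mp hβ
  obtain ⟨y1, hy2, y2, hy3, rfl⟩ := AddSubgroup.mem_sup.mp
    (show y ∈ U1 ⊔ U2 by rw [hU]; trivial)
  obtain ⟨z1, hz2, z2, hz3, rfl⟩ := AddSubgroup.mem_sup.mp
    (show z ∈ U1 ⊔ U2 by rw [hU]; trivial)
  have f1 : ∀ v ∈ U2, a • v = v := fun v hv => (hU1 a ha).2 hv
  have f2 : ∀ v ∈ U1, (g * a * g⁻¹) • v = v := fun v hv => (hU2 _ hgE hga).2 hv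
  refine nocomm hy h2 (a := a) (b := g * a * g⁻¹) (x := y1 + z2) (α := α) (β := g • α)
    ?_ ?_ (f1 _ hβ2) ⟨g, rfl⟩ ?_
  · rw [smul_add, f1 y2 hy3] at hy1
    have : a • y1 = y1 + α := by
      have e : a • y1 = (a • y1 + y2) - y2 := by abel
      rw [e, hy1]; abel
    rw [smul_add, this, f1 z2 hz3]; abel
  · rw [smul_add, f2 z1 hz2] at hz1
    have : (g * a * g⁻¹) • z2 = z2 + g • α := by
      have e : (g * a * g⁻¹) • z2 = (z1 + (g * a * g⁻¹) • z2) - z1 := by abel
      rw [e, hz1]; abel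
    rw [smul_add, this, f2 y1 hy2]; abel
  · intro e
    exact hα0 (hint α hα1 (by rw [e]; exact hβ2))

lemma card_D_two (hy : Hyp H V) (h2 : ∀ v : V, v + v = 0) {a b : H} (ha : E V a)
    (hb : E V b) : Nat.card (D V a) = Nat.card (D V b) :=
  (conn_two hy h2 (fun c => E V c ∧ Nat.card (D V a) = Nat.card (D V c)) (fun _ h => h.1)
    (fun _ _ hc hd hcd => ⟨hd, hc.2.trans (hcd.card (sy_two hy h2) hc.1 hd)⟩) ⟨ha, rfl⟩ hb).2

lemma card_F_two (hy : Hyp H V) (h2 : ∀ v : V, v + v = 0) {a b : H} (ha : E V a)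
    (hb : E V b) : Nat.card (F V a) = Nat.card (F V b) := by
  have e1 := card_mul (V := V) a
  have e2 := card_mul (V := V) b
  rw [card_D_two hy h2 hb ha, ← e1] at e2
  exact (Nat.eq_of_mul_eq_mul_left Nat.card_pos e2).symm

/-- decomposition for a non-orthogonal pair -/
lemma dec_two (hy : Hyp H V) (h2 : ∀ v : V, v + v = 0) {a b : H} (ha : E V a) (hb : E V b)
    (hab : N V a b) (v : V) : ∃ x ∈ D V a, ∃ y ∈ D V b, ∃ z ∈ F V a ⊓ F V b, v = x + y + z := by
  have key : ∀ {a b : H}, E V a → E V b → N V a b → ∀ v : V, ∃ x ∈ D V a, ∃ y ∈ F V b,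
      v = x + y := by
    intro a b ha hb hab v
    have hinj : Function.Injective (fun p : D V a × F V b => (p.1.1 + p.2.1 : V)) := by
      rintro ⟨⟨x, hx⟩, ⟨y, hy⟩⟩ ⟨⟨x', hx'⟩, ⟨y', hy'⟩⟩ hxy
      have hxy' : x + y = x' + y' := hxy
      have e1 : x - x' = y' - y := by
        have : x - x' = (x + y) - y - x' := by abel
        rw [this, hxy']; abel
      have e2 : x - x' = 0 := hab _ (AddSubgroup.sub_mem _ hx hx')
        (by rw [e1]; exact AddSubgroup.sub_mem _ hy' hy)
      have e3 : x = x' := sub_eq_zero.mp e2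
      subst e3
      have e4 : y = y' := add_left_cancel hxy'
      subst e4
      rfl
    have hbij := (Nat.bijective_iff_injective_and_card _).mpr ⟨hinj, by
      rw [Nat.card_prod, card_D_two hy h2 ha hb, card_mul]⟩
    obtain ⟨⟨⟨x, hx⟩, ⟨y, hy⟩⟩, hxy⟩ := hbij.2 v
    exact ⟨x, hx, y, hy, hxy.symm⟩
  obtain ⟨y, hy1, w, hw, rfl⟩ := key hb ha (hab.symm (sy_two hy h2) ha hb) v
  obtain ⟨x, hx, z, hz, rfl⟩ := key ha hb hab w
  refine ⟨x, hx, y, hy1, z, ⟨?_, hz⟩, by abel⟩
  have := AddSubgroup.sub_mem _ hw (DleF hy h2 ha hx)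
  rwa [show x + z - x = z by abel] at this

/-- `z` commuting with `a` fixes `[V,a]` -/
lemma fix_of_comm (hy : Hyp H V) (h2 : ∀ v : V, v + v = 0) {a : H} (ha : E V a) {z : H}
    (hz : z * a * z⁻¹ = a) {v : V} (hv : v ∈ D V a) : z • v = v := by
  have h3 := (D_conj z a v).mpr hv
  rw [hz] at h3
  exact (type_uniq hy ha (DleF hy h2 ha hv) (AddSubgroup.sub_mem _ h3 hv) ⟨z, rfl⟩).symm

lemma conj_of_N (hy : Hyp H V) (h2 : ∀ v : V, v + v = 0) {a b : H} (ha : E V a) (hb : E V b)
    (hab : N V a b) : ∃ g : H, b = g * a * g⁻¹ := by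
  have ea : a⁻¹ = a := inv_eq_of_mul_eq_one_right (ha.sq hy.bin)
  have eb : b⁻¹ = b := inv_eq_of_mul_eq_one_right (hb.sq hy.bin)
  have eab : (a * b)⁻¹ = b * a := by rw [mul_inv_rev, ea, eb]
  have k1 : ∀ m : ℕ, a * (a * b) ^ m * a⁻¹ = ((a * b) ^ m)⁻¹ := by
    intro m
    rw [← inv_pow, eab, ← conj_pow]
    congr 1
    rw [ea, ← mul_assoc, ha.sq hy.bin, one_mul]
  have k2 : ∀ m : ℕ, b * (a * b) ^ m * b⁻¹ = ((a * b) ^ m)⁻¹ := by
    intro m
    rw [← inv_pow, eab, ← conj_pow]
    congr 1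
    rw [mul_assoc, mul_assoc, mul_inv_cancel, mul_one]
  rcases Nat.even_or_odd' (orderOf (a * b)) with ⟨m, hm | hm⟩
  · exfalso
    have hpos : 0 < orderOf (a * b) := orderOf_pos _
    have hz1 : (a * b) ^ m ≠ 1 := by
      intro h
      have := Nat.le_of_dvd (by omega) (orderOf_dvd_of_pow_eq_one h)
      omega
    have hz2 : (a * b) ^ m * (a * b) ^ m = 1 := by
      rw [← pow_add, ← two_mul, ← hm, pow_orderOf_eq_one]
    have hz3 : ((a * b) ^ m)⁻¹ = (a * b) ^ m := inv_eq_of_mul_eq_one_right hz2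
    have c1 : (a * b) ^ m * a * ((a * b) ^ m)⁻¹ = a := by
      have h3 := k1 m
      rw [hz3] at h3 ⊢
      rw [mul_inv_eq_iff_eq_mul] at h3
      rw [← h3, mul_assoc, hz2, mul_one]
    have c2 : (a * b) ^ m * b * ((a * b) ^ m)⁻¹ = b := by
      have h3 := k2 m
      rw [hz3] at h3 ⊢
      rw [mul_inv_eq_iff_eq_mul] at h3
      rw [← h3, mul_assoc, hz2, mul_one]
    apply hz1
    refine eq_one_of_fix (V := V) fun v => ?_
    obtain ⟨x, hx, y, hy1, z, hz, rfl⟩ := dec_two hy h2 ha hb hab v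
    rw [smul_add, smul_add, fix_of_comm hy h2 ha c1 hx, fix_of_comm hy h2 hb c2 hy1]
    congr 1
    have : ∀ n : ℕ, (a * b) ^ n • z = z := by
      intro n
      induction n with
      | zero => rw [pow_zero, one_smul]
      | succ n ih => rw [pow_succ, mul_smul, mul_smul, mem_F.mp hz.2, mem_F.mp hz.1, ih]
    exact this m
  · refine ⟨(a * b) ^ m, ?_⟩
    have h3 := k1 m
    rw [mul_inv_eq_iff_eq_mul] at h3
    -- `a * (ab)^m = (ab)^{-m} a`
    have h4 : a * ((a * b) ^ m)⁻¹ = (a * b) ^ m * a := by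
      rw [mul_inv_eq_iff_eq_mul, mul_assoc, h3, ← mul_assoc, mul_inv_cancel, one_mul]
    have h5 : (a * b) ^ (2 * m) = b * a := by
      rw [← eab, eq_inv_iff_mul_eq_one, ← pow_succ, ← hm, pow_orderOf_eq_one]
    rw [mul_assoc, h4, ← mul_assoc, ← pow_add, ← two_mul, h5, mul_assoc, ha.sq hy.bin, mul_one]

lemma conj_two (hy : Hyp H V) (h2 : ∀ v : V, v + v = 0) {a b : H} (ha : E V a) (hb : E V b) :
    ∃ g : H, b = g * a * g⁻¹ := by
  refine (conn_two hy h2 (fun c => E V c ∧ ∃ g : H, c = g * a * g⁻¹) (fun _ h => h.1) ?_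
    ⟨ha, 1, by simp⟩ hb).2
  rintro c d ⟨hc, g, rfl⟩ hd hcd
  obtain ⟨g', rfl⟩ := conj_of_N hy h2 hc hd hcd
  exact ⟨hd, g' * g, by group⟩

lemma orth_two (hy : Hyp H V) (h2 : ∀ v : V, v + v = 0) {a b : H} (ha : E V a) (hb : E V b)
    (hab : ¬ N V a b) : F V a = F V b := by
  by_cases hne : a = b
  · rw [hne]
  obtain ⟨h3, h4⟩ := not_N (sy_two hy h2) ha hb hab
  obtain ⟨g, hg⟩ := conj_two hy h2 ha hb
  let μ : V →+ V := (DistribSMul.toAddMonoidHom V b - AddMonoidHom.id V) -
    (DistribSMul.toAddMonoidHom V g).comp (DistribSMul.toAddMonoidHom V a - AddMonoidHom.id V)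
  have hμ : ∀ x, μ x = (b • x - x) - g • (a • x - x) := fun x => rfl
  have hrange : μ.range ≤ D V b := by
    rintro _ ⟨x, rfl⟩
    rw [hμ]
    refine AddSubgroup.sub_mem _ (mem_D.mpr ⟨x, by abel⟩) ?_
    have := (D_conj g a (a • x - x)).mpr (mem_D.mpr ⟨x, by abel⟩)
    rwa [← hg] at this
  have hker : μ.ker ≤ F V a ⊓ F V b := by
    intro x hx
    rw [AddMonoidHom.mem_ker, hμ, sub_eq_zero] at hx
    by_cases h0 : a • x = x
    · refine ⟨h0, ?_⟩
      rw [h0, sub_self, smul_zero, sub_eq_zero] at hx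
      exact hx
    · exfalso
      have hα : a • x - x ≠ 0 := sub_ne_zero.mpr h0
      have hbD : b • x - x ∈ D V b := mem_D.mpr ⟨x, by abel⟩
      refine nocomm hy h2 (a := a) (b := b) (x := x) (α := a • x - x) (β := b • x - x)
        (by abel) (by abel) (h3 hbD) ⟨g, hx.symm⟩ fun e => hne ?_
      exact ha.uniq hy.bin hb hα (mem_D.mpr ⟨x, by abel⟩) (by rw [e]; exact hbD)
  have hcard : Nat.card V = Nat.card μ.range * Nat.card μ.ker := by
    rw [AddSubgroup.card_eq_card_quotient_mul_card_addSubgroup μ.ker]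
    congr 1
    exact Nat.card_congr (QuotientAddGroup.quotientKerEquivRange μ).toEquiv
  have h5 : Nat.card μ.range ≤ Nat.card (D V b) :=
    Nat.card_le_card_of_injective _ (AddSubgroup.inclusion_injective hrange)
  have h6 : Nat.card μ.ker ≤ Nat.card (F V a ⊓ F V b : AddSubgroup V) :=
    Nat.card_le_card_of_injective _ (AddSubgroup.inclusion_injective hker)
  have h7 : Nat.card (F V b) ≤ Nat.card (F V a ⊓ F V b : AddSubgroup V) := by
    have h8 : Nat.card (D V b) * Nat.card (F V b) ≤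
        Nat.card (D V b) * Nat.card (F V a ⊓ F V b : AddSubgroup V) := by
      rw [card_mul, hcard]
      exact Nat.mul_le_mul h5 h6
    exact Nat.le_of_mul_le_mul_left h8 Nat.card_pos
  have h8 : F V a ⊓ F V b = F V b := AddSubgroup.eq_of_le_of_card_ge inf_le_right h7
  have h9 : F V b ≤ F V a := by rw [← h8]; exact inf_le_left
  exact (AddSubgroup.eq_of_le_of_card_ge h9 (card_F_two hy h2 ha hb).le).symm

/-- a vector of `[V,a]` fixed by `b` -/
lemma F_eq_of_fix (hy : Hyp H V) (h2 : ∀ v : V, v + v = 0) {a b : H} (ha : E V a) (hb : E V b)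
    {u : V} (hu : u ≠ 0) (hD : u ∈ D V a) (hF : u ∈ F V b) : F V a = F V b :=
  orth_two hy h2 ha hb fun h => hu (h u hD hF)

lemma cover (hy : Hyp H V) (h2 : ∀ v : V, v + v = 0) {a b : H} (ha : E V a) (hb : E V b)
    (hab : N V a b) (x : V) : ∃ c : H, E V c ∧ F V a ⊓ F V b ≤ F V c ∧ x ∈ F V c := by
  by_contra hcon
  have h1 : ∀ k : H, F V a ⊓ F V b ≤ F V k → k • x = x → k = 1 := by
    intro k hk hkx
    by_contra hne
    obtain ⟨c, hc, hle⟩ := exists_E (V := V) hne
    exact hcon ⟨c, hc, hk.trans hle, hle hkx⟩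
  have hR : F V a ⊓ F V b ≤ F V (a * b) := by
    intro v hv
    rw [mem_F, mul_smul, mem_F.mp hv.2, mem_F.mp hv.1]
  obtain ⟨h', h6, h7, h8⟩ := hy.bin.swap1 ((F V a ⊓ F V b : AddSubgroup V) : Set V) (a * b)
    (fun c hc => hR hc) x
  have h9 : (a * b)⁻¹ * h' = 1 := by
    refine h1 _ (fun c hc => ?_) (by rw [mul_smul, h7, inv_smul_smul])
    rw [mem_F, mul_smul, h6 c hc, inv_smul_eq_iff]
    exact (hR hc).symm
  have h10 : h' = a * b := (inv_mul_eq_one.mp h9).symm
  subst h10
  have h11 : a * b * (a * b) = 1 := by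
    refine h1 _ (fun c hc => ?_) (by rw [mul_smul, h8])
    rw [mem_F, mul_smul, h6 c hc, h6 c hc]
  have ea : a⁻¹ = a := inv_eq_of_mul_eq_one_right (ha.sq hy.bin)
  have eb : b⁻¹ = b := inv_eq_of_mul_eq_one_right (hb.sq hy.bin)
  have hc : b * a * b⁻¹ = a := by
    rw [eb]
    have : a * (b * a * b) = 1 := by rw [← h11]; group
    rw [← ea]
    have h12 := (eq_inv_of_mul_eq_one_right this)
    rw [ea] at h12 ⊢
    exact h12
  obtain ⟨u, hu, hu0⟩ := ha.exD
  exact hu0 (hab u hu (fix_of_comm hy h2 ha hc hu))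

lemma inter_card (hy : Hyp H V) (h2 : ∀ v : V, v + v = 0) {a b : H} (ha : E V a) (hb : E V b)
    (hab : N V a b) :
    Nat.card (F V a) = Nat.card (D V a) * Nat.card (F V a ⊓ F V b : AddSubgroup V) := by
  apply le_antisymm
  · have h1 : Nat.card V ≤ Nat.card (D V a) * Nat.card (D V b) *
        Nat.card (F V a ⊓ F V b : AddSubgroup V) := by
      rw [← Nat.card_prod, ← Nat.card_prod]
      refine Nat.card_le_card_of_surjective (fun p : (D V a × D V b) ×
        (F V a ⊓ F V b : AddSubgroup V) => (p.1.1.1 + p.1.2.1 + p.2.1 : V)) fun v => ?_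
      obtain ⟨x, hx, y, hy1, z, hz, rfl⟩ := dec_two hy h2 ha hb hab v
      exact ⟨⟨⟨⟨x, hx⟩, ⟨y, hy1⟩⟩, ⟨z, hz⟩⟩, rfl⟩
    rw [← card_mul (V := V) a, card_D_two hy h2 hb ha, mul_assoc] at h1
    exact Nat.le_of_mul_le_mul_left h1 Nat.card_pos
  · rw [← Nat.card_prod]
    refine Nat.card_le_card_of_injective (fun p : D V a × (F V a ⊓ F V b : AddSubgroup V) =>
      (⟨p.1.1 + p.2.1, AddSubgroup.add_mem _ (DleF hy h2 ha p.1.2) p.2.2.1⟩ : F V a)) ?_
    rintro ⟨⟨x, hx⟩, ⟨y, hy1⟩⟩ ⟨⟨x', hx'⟩, ⟨y', hy'⟩⟩ hxy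
    have hxy' : x + y = x' + y' := congrArg (fun z : F V a => z.1) hxy
    have e1 : x - x' = y' - y := by
      have : x - x' = (x + y) - y - x' := by abel
      rw [this, hxy']; abel
    have e2 : x - x' = 0 := hab _ (AddSubgroup.sub_mem _ hx hx')
      (by rw [e1]; exact (AddSubgroup.sub_mem _ hy' hy1).2)
    have e3 : x = x' := sub_eq_zero.mp e2
    subst e3
    have e4 : y = y' := add_left_cancel hxy'
    subst e4
    rfl

open Classical in
/-- the set of fixed spaces -/
noncomputable def WW (H V : Type*) [AddCommGroup V] [Group H] [DistribMulAction H V]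
    [Fintype H] : Finset (AddSubgroup V) :=
  (Finset.univ.filter fun a : H => E V a).image fun a => F V a

lemma mem_WW [Fintype H] {W : AddSubgroup V} : W ∈ WW H V ↔ ∃ a : H, E V a ∧ F V a = W := by
  classical
  unfold WW
  rw [Finset.mem_image]
  simp

open Classical in
lemma line_card [Fintype H] (hy : Hyp H V) (h2 : ∀ v : V, v + v = 0) {a b : H} (ha : E V a)
    (hb : E V b) (hab : N V a b) :
    Nat.card (D V a) + 1 ≤ ((WW H V).filter fun W => F V a ⊓ F V b ≤ W).card := by
  by_contra hcon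
  push Not at hcon
  have : Fintype V := Fintype.ofFinite V
  set L := (WW H V).filter fun W => F V a ⊓ F V b ≤ W with hL
  set q := Nat.card (D V a) with hq
  set r := Nat.card (F V a ⊓ F V b : AddSubgroup V) with hr
  have hf : Nat.card (F V a) = q * r := inter_card hy h2 ha hb hab
  have hV : Nat.card V = q * (q * r) := by rw [← card_mul (V := V) a, hf]
  -- finsets
  let s : AddSubgroup V → Finset V := fun W => Finset.univ.filter fun v => v ∈ W
  have hs : ∀ W : AddSubgroup V, (s W).card = Nat.card W := by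
    intro W
    rw [Nat.card_eq_fintype_card, Fintype.card_subtype]
  have hsub : (Finset.univ \ s (F V a ⊓ F V b)) ⊆
      L.biUnion fun W => s W \ s (F V a ⊓ F V b) := by
    intro v hv
    rw [Finset.mem_sdiff] at hv
    obtain ⟨c, hc, hle, hx⟩ := cover hy h2 ha hb hab v
    rw [Finset.mem_biUnion]
    refine ⟨F V c, ?_, ?_⟩
    · rw [hL, Finset.mem_filter, mem_WW]
      exact ⟨⟨c, hc, rfl⟩, hle⟩
    · rw [Finset.mem_sdiff]
      exact ⟨by simpa [s] using hx, hv.2⟩
  have h3 := (Finset.card_le_card hsub).trans Finset.card_biUnion_le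
  have h4 : ∀ W ∈ L, (s W \ s (F V a ⊓ F V b)).card = q * r - r := by
    intro W hW
    rw [hL, Finset.mem_filter, mem_WW] at hW
    obtain ⟨⟨c, hc, rfl⟩, hle⟩ := hW
    rw [Finset.card_sdiff_of_subset (fun v hv => by
      simp only [s, Finset.mem_filter, Finset.mem_univ, true_and] at hv ⊢
      exact hle hv), hs, hs, ← card_F_two hy h2 ha hc, hf]
  rw [Finset.sum_congr rfl h4, Finset.sum_const, smul_eq_mul,
    Finset.card_sdiff_of_subset (Finset.subset_univ _), hs, Finset.card_univ,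
    ← Nat.card_eq_fintype_card, hV] at h3
  have h5 : L.card * (q * r - r) ≤ q * (q * r - r) :=
    Nat.mul_le_mul_right _ (Nat.lt_succ_iff.mp hcon)
  have h6 := h3.trans h5
  have hq1 : 1 < q := one_lt_D ha
  have hr1 : 0 < r := Nat.card_pos
  obtain ⟨k, hk⟩ : ∃ k, q = k + 2 := ⟨q - 2, by omega⟩
  rw [hk] at h6
  have e1 : (k + 2) * r - r = (k + 1) * r := by
    rw [show (k + 2) * r = (k + 1) * r + r by ring, Nat.add_sub_cancel]
  have e2 : (k + 2) * ((k + 2) * r) - r = (k + 2) * ((k + 1) * r) + (k + 1) * r := by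
    rw [show (k + 2) * ((k + 2) * r) = (k + 2) * ((k + 1) * r) + (k + 1) * r + r by ring,
      Nat.add_sub_cancel]
  rw [e1, e2] at h6
  have h7 : 0 < (k + 1) * r := Nat.mul_pos (Nat.succ_pos _) hr1
  omega

open Classical in
lemma two_lines [Fintype H] (hy : Hyp H V) (h2 : ∀ v : V, v + v = 0) {a b : H} (ha : E V a)
    (hb : E V b) (hab : N V a b) (hne : F V a ⊓ F V b ≠ ⊥) :
    2 * Nat.card (D V a) + 1 ≤ (WW H V).card := by
  obtain ⟨v, hv, hv0⟩ : ∃ v ∈ F V a ⊓ F V b, v ≠ 0 := by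
    by_contra hcon
    push Not at hcon
    exact hne ((AddSubgroup.eq_bot_iff_forall _).mpr hcon)
  obtain ⟨c, hc, hcv⟩ : ∃ c : H, E V c ∧ c • v ≠ v := by
    by_contra hcon
    push Not at hcon
    exact hv0 (eq_zero_of_fixE hy.irr ha.1 hcon)
  have hac : N V a c := by
    by_contra h
    have := orth_two hy h2 ha hc h
    apply hcv
    have h3 : v ∈ F V c := by rw [← this]; exact hv.1
    exact h3
  have h3 := line_card hy h2 ha hb hab
  have h4 := line_card hy h2 ha hc hac
  set L1 := (WW H V).filter fun W => F V a ⊓ F V b ≤ W with hL1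
  set L2 := (WW H V).filter fun W => F V a ⊓ F V c ≤ W with hL2
  have h5 : L1 ∩ L2 ⊆ {F V a} := by
    intro W hW
    rw [Finset.mem_inter, hL1, hL2, Finset.mem_filter, Finset.mem_filter, mem_WW] at hW
    obtain ⟨⟨⟨d, hd, rfl⟩, h6⟩, -, h7⟩ := hW
    rw [Finset.mem_singleton]
    by_contra h8
    have had : N V a d := by
      by_contra h
      exact h8 (orth_two hy h2 ha hd h).symm
    have key : ∀ {b : H}, E V b → N V a b → F V a ⊓ F V b ≤ F V d →
        F V a ⊓ F V b = F V a ⊓ F V d := by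
      intro b hb hab hle
      refine AddSubgroup.eq_of_le_of_card_ge (le_inf inf_le_left hle) ?_
      have e1 := inter_card hy h2 ha hb hab
      have e2 := inter_card hy h2 ha hd had
      rw [e1] at e2
      exact (Nat.eq_of_mul_eq_mul_left Nat.card_pos e2).ge
    have h9 := key hb hab h6
    have h10 := key hc hac h7
    apply hcv
    have h11 : v ∈ F V a ⊓ F V c := by rw [h10, ← h9]; exact hv
    exact h11.2
  have h6 : L1 ∪ L2 ⊆ WW H V :=
    Finset.union_subset (Finset.filter_subset _ _) (Finset.filter_subset _ _)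
  have h7 := Finset.card_union_add_card_inter L1 L2
  have h8 := Finset.card_le_card h5
  rw [Finset.card_singleton] at h8
  have h9 := Finset.card_le_card h6
  omega

lemma F_conj_eq (g c d : H) : F V (g * c * g⁻¹) = F V (g * d * g⁻¹) ↔ F V c = F V d := by
  have key : ∀ c d : H, F V c = F V d → F V (g * c * g⁻¹) = F V (g * d * g⁻¹) := by
    intro c d h
    ext v
    have e := F_conj g c (g⁻¹ • v)
    have e' := F_conj g d (g⁻¹ • v)
    rw [smul_inv_smul] at e e'
    rw [e, e', h]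
  refine ⟨fun h => ?_, key c d⟩
  ext v
  rw [← F_conj g c, ← F_conj g d, h]

open Classical in
lemma WW_card_le [Fintype H] (hy : Hyp H V) (h2 : ∀ v : V, v + v = 0) {a : H} (ha : E V a) :
    (WW H V).card ≤ 2 * Nat.card (D V a) - 1 := by
  have : Fintype V := Fintype.ofFinite V
  set Es : Finset H := Finset.univ.filter fun b => E V b with hEs
  have mEs : ∀ b : H, b ∈ Es ↔ E V b := fun b => by rw [hEs, Finset.mem_filter]; simp
  set T : Finset H := Es.filter fun c => F V c = F V a with hT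
  -- all fibres have the same size
  have hfib : ∀ b : H, E V b → (Es.filter fun c => F V c = F V b).card = T.card := by
    intro b hb
    obtain ⟨g, rfl⟩ := conj_two hy h2 ha hb
    symm
    refine Finset.card_nbij' (fun c => g * c * g⁻¹) (fun c => g⁻¹ * c * g) ?_ ?_ ?_ ?_
    · intro c hc
      rw [Finset.mem_coe, hT, Finset.mem_filter, mEs] at hc
      rw [Finset.mem_coe, Finset.mem_filter, mEs]
      exact ⟨hc.1.conj g, (F_conj_eq g c a).mpr hc.2⟩
    · intro c hc
      rw [Finset.mem_coe, Finset.mem_filter, mEs] at hc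
      rw [Finset.mem_coe, hT, Finset.mem_filter, mEs]
      refine ⟨by simpa using hc.1.conj g⁻¹, ?_⟩
      have := hc.2
      rw [← F_conj_eq g]
      rw [← this]
      congr 1
      group
    · intro c _
      show g⁻¹ * (g * c * g⁻¹) * g = c
      group
    · intro c _
      show g * (g⁻¹ * c * g) * g⁻¹ = c
      group
  have hE1 : Es.card = (WW H V).card * T.card := by
    rw [Finset.card_eq_sum_card_image (fun a => F V a) Es]
    have : ∀ W ∈ Es.image (fun a => F V a), (Es.filter fun c => F V c = W).card = T.card := by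
      intro W hW
      rw [Finset.mem_image] at hW
      obtain ⟨b, hb, rfl⟩ := hW
      exact hfib b ((mEs b).mp hb)
    rw [Finset.sum_congr rfl this, Finset.sum_const, smul_eq_mul]
    congr 1
  obtain ⟨α, hα, hα0⟩ := ha.exD
  set O : Finset V := Finset.univ.filter fun x => R H α x with hO
  have mO : ∀ x, x ∈ O ↔ R H α x := fun x => by rw [hO, Finset.mem_filter]; simp
  have o1 : ∀ b : H, E V b → ∃ x ∈ O, x ∈ D V b := by
    intro b hb
    obtain ⟨g, rfl⟩ := conj_two hy h2 ha hb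
    exact ⟨g • α, (mO _).mpr ⟨g, rfl⟩, (D_conj g a α).mpr hα⟩
  have o2 : ∀ b : H, E V b → ∀ x y, x ∈ O → y ∈ O → x ∈ D V b → y ∈ D V b → x = y := by
    intro b hb x y hx hy1 hxD hyD
    exact type_uniq hy hb (DleF hy h2 hb hxD) (AddSubgroup.sub_mem _ hyD hxD)
      (((mO _).mp hx).symm.trans ((mO _).mp hy1))
  have o3 : ∀ x, x ∈ O → ∃ b : H, E V b ∧ x ∈ D V b := by
    intro x hx
    obtain ⟨g, rfl⟩ := (mO _).mp hx
    exact ⟨g * a * g⁻¹, ha.conj g, (D_conj g a α).mpr hα⟩
  have o4 : ∀ x, x ∈ O → x ≠ 0 := by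
    rintro x hx rfl
    exact hα0 (((mO _).mp hx).symm.zero)
  have : ∀ x, ∃ b : H, x ∈ O → E V b ∧ x ∈ D V b := by
    intro x
    by_cases hx : x ∈ O
    · obtain ⟨b, hb⟩ := o3 x hx
      exact ⟨b, fun _ => hb⟩
    · exact ⟨1, fun h => absurd h hx⟩
  choose f hf using this
  have hOE : O.card = Es.card := by
    refine Finset.card_bij (fun x _ => f x) ?_ ?_ ?_
    · intro x hx
      exact (mEs _).mpr (hf x hx).1
    · intro x hx y hy1 hxy
      exact o2 (f x) (hf x hx).1 x y hx hy1 (hf x hx).2 (by rw [hxy]; exact (hf y hy1).2)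
    · intro b hb
      obtain ⟨x, hx, hxb⟩ := o1 b ((mEs _).mp hb)
      exact ⟨x, hx, (hf x hx).1.uniq hy.bin ((mEs _).mp hb) (o4 x hx) (hf x hx).2 hxb⟩
  -- the fibres of `O` over the quotient by `F a`
  have o5 : ∀ x ∈ O, (O.filter fun y => y - x ∈ F V a).card ≤ 2 * T.card := by
    intro x hx
    set G : Finset V := (Es.filter fun b => b • x ≠ x).image fun b => b • x with hG
    have hGO : G ⊆ O := by
      intro y hy1
      rw [hG, Finset.mem_image] at hy1
      obtain ⟨b, -, rfl⟩ := hy1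
      exact (mO _).mpr (((mO _).mp hx).trans ⟨b, rfl⟩)
    have hGc : G.card = (Es.filter fun b => b • x ≠ x).card := by
      refine Finset.card_image_of_injOn ?_
      intro b hb c hc hbc
      rw [Finset.mem_coe, Finset.mem_filter, mEs] at hb hc
      have hbc' : b • x = c • x := hbc
      refine hb.1.uniq hy.bin hc.1 (sub_ne_zero.mpr hb.2) (mem_D.mpr ⟨x, by abel⟩) ?_
      rw [hbc']
      exact mem_D.mpr ⟨x, by abel⟩
    have hfx : (Es.filter fun b => ¬ b • x ≠ x) = Es.filter fun c => F V c = F V (f x) := by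
      ext b
      simp only [Finset.mem_filter, Finset.mem_univ, true_and, ne_eq, not_not, hEs]
      constructor
      · rintro ⟨hb, hbx⟩
        exact ⟨hb, (F_eq_of_fix hy h2 (hf x hx).1 hb (o4 x hx) (hf x hx).2 hbx).symm⟩
      · rintro ⟨hb, hbx⟩
        refine ⟨hb, ?_⟩
        have : x ∈ F V b := by rw [hbx]; exact DleF hy h2 (hf x hx).1 (hf x hx).2
        exact this
    have hsum := Finset.card_filter_add_card_filter_not (s := Es) (fun b => b • x ≠ x)
    rw [hfx, hfib _ (hf x hx).1, ← hGc, ← hOE] at hsum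
    have hdiff : (O \ G).card = T.card := by
      rw [Finset.card_sdiff_of_subset hGO]
      omega
    have hsub : (O.filter fun y => y - x ∈ F V a) ⊆ (O \ G) ∪ T.image fun c => c • x := by
      intro y hy1
      rw [Finset.mem_filter] at hy1
      rw [Finset.mem_union, Finset.mem_sdiff]
      by_cases hyG : y ∈ G
      · right
        rw [hG, Finset.mem_image] at hyG
        obtain ⟨b, hb, rfl⟩ := hyG
        rw [Finset.mem_filter, mEs] at hb
        rw [Finset.mem_image]
        refine ⟨b, ?_, rfl⟩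
        rw [hT, Finset.mem_filter, mEs]
        exact ⟨hb.1, F_eq_of_fix hy h2 hb.1 ha (sub_ne_zero.mpr hb.2)
          (mem_D.mpr ⟨x, by abel⟩) hy1.2⟩
      · exact Or.inl ⟨hy1.1, hyG⟩
    calc (O.filter fun y => y - x ∈ F V a).card ≤ ((O \ G) ∪ T.image fun c => c • x).card :=
          Finset.card_le_card hsub
      _ ≤ (O \ G).card + (T.image fun c => c • x).card := Finset.card_union_le _ _
      _ ≤ T.card + T.card := by
          rw [hdiff]
          exact Nat.add_le_add_left Finset.card_image_le _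
      _ = 2 * T.card := by ring
  have o6 : (O.filter fun y => y ∈ F V a).card ≤ T.card := by
    refine Finset.card_le_card_of_injOn f ?_ ?_
    · intro y hy1
      rw [Finset.mem_coe, Finset.mem_filter] at hy1
      rw [Finset.mem_coe, hT, Finset.mem_filter, mEs]
      exact ⟨(hf y hy1.1).1, F_eq_of_fix hy h2 (hf y hy1.1).1 ha (o4 y hy1.1)
        (hf y hy1.1).2 hy1.2⟩
    · intro x hx y hy1 hxy
      rw [Finset.mem_coe, Finset.mem_filter] at hx hy1
      exact o2 (f x) (hf x hx.1).1 x y hx.1 hy1.1 (hf x hx.1).2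
        (by rw [hxy]; exact (hf y hy1.1).2)
  have : Fintype (V ⧸ F V a) := Fintype.ofFinite _
  have hq : Fintype.card (V ⧸ F V a) = Nat.card (D V a) := by
    rw [← Nat.card_eq_fintype_card]
    have h1 := AddSubgroup.card_eq_card_quotient_mul_card_addSubgroup (F V a)
    rw [← card_mul (V := V) a] at h1
    exact (Nat.eq_of_mul_eq_mul_right Nat.card_pos h1).symm
  have h3 : O.card ≤ (2 * Nat.card (D V a) - 1) * T.card := by
    rw [Finset.card_eq_sum_card_fiberwise (f := fun v => (QuotientAddGroup.mk v : V ⧸ F V a))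
      (t := Finset.univ) (fun _ _ => Finset.mem_coe.mpr (Finset.mem_univ _)),
      ← Finset.add_sum_erase _ _ (Finset.mem_univ (0 : V ⧸ F V a))]
    have e1 : (O.filter fun v => (QuotientAddGroup.mk v : V ⧸ F V a) = 0).card ≤ T.card := by
      refine le_trans (Finset.card_le_card ?_) o6
      intro v hv
      rw [Finset.mem_filter] at hv ⊢
      exact ⟨hv.1, (QuotientAddGroup.eq_zero_iff v).mp hv.2⟩
    have e2 : ∀ c ∈ Finset.univ.erase (0 : V ⧸ F V a),
        (O.filter fun v => (QuotientAddGroup.mk v : V ⧸ F V a) = c).card ≤ 2 * T.card := by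
      intro c _
      rcases (O.filter fun v => (QuotientAddGroup.mk v : V ⧸ F V a) = c).eq_empty_or_nonempty
        with h | ⟨x, hx⟩
      · rw [h, Finset.card_empty]; exact Nat.zero_le _
      · rw [Finset.mem_filter] at hx
        refine le_trans (Finset.card_le_card ?_) (o5 x hx.1)
        intro v hv
        rw [Finset.mem_filter] at hv ⊢
        refine ⟨hv.1, ?_⟩
        have := hx.2.trans hv.2.symm
        rw [QuotientAddGroup.eq] at this
        rwa [show v - x = -x + v by abel]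
    have e3 := Finset.sum_le_card_nsmul _ _ _ e2
    rw [Finset.card_erase_of_mem (Finset.mem_univ _), Finset.card_univ, hq, smul_eq_mul] at e3
    refine (Nat.add_le_add e1 e3).trans (le_of_eq ?_)
    have hq1 : 1 < Nat.card (D V a) := one_lt_D ha
    obtain ⟨k, hk⟩ : ∃ k, Nat.card (D V a) = k + 2 := ⟨Nat.card (D V a) - 2, by omega⟩
    rw [hk]
    have f1 : k + 2 - 1 = k + 1 := by omega
    have f2 : 2 * (k + 2) - 1 = 2 * (k + 1) + 1 := by omega
    rw [f1, f2]; ring
  rw [hOE, hE1] at h3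
  have hT0 : 0 < T.card := by
    rw [Finset.card_pos]
    exact ⟨a, by rw [hT, Finset.mem_filter, mEs]; exact ⟨ha, rfl⟩⟩
  exact Nat.le_of_mul_le_mul_right h3 hT0

lemma plane_two (hy : Hyp H V) (h2 : ∀ v : V, v + v = 0) : Plane H V := by
  classical
  have : Fintype H := Fintype.ofFinite H
  obtain ⟨a, ha⟩ := hy.exE
  obtain ⟨u, hu, hu0⟩ := ha.exD
  obtain ⟨b, hb, hbu⟩ : ∃ b : H, E V b ∧ b • u ≠ u := by
    by_contra hcon
    push Not at hcon
    exact hu0 (eq_zero_of_fixE hy.irr ha.1 hcon)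
  have hab : N V a b := by
    by_contra h
    have := orth_two hy h2 ha hb h
    apply hbu
    have h3 : u ∈ F V b := by rw [← this]; exact DleF hy h2 ha hu
    exact h3
  have h3 : F V a ⊓ F V b = ⊥ := by
    by_contra hne
    have h4 := two_lines hy h2 ha hb hab hne
    have h5 := WW_card_le hy h2 ha
    omega
  have h4 := inter_card hy h2 ha hb hab
  rw [h3, AddSubgroup.card_bot, mul_one] at h4
  refine ⟨Nat.card (D V a), ?_, fun c hc => ⟨card_D_two hy h2 hc ha, c, hc, ?_, ?_⟩⟩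
  · rw [← card_mul (V := V) a, h4]
  all_goals
    have h5 : D V c = F V c := AddSubgroup.eq_of_le_of_card_ge (DleF hy h2 hc)
      (by rw [← card_F_two hy h2 ha hc, h4, card_D_two hy h2 ha hc])
  · exact h5.symm
  · exact h5.symm

end

end Cfsg.Agent.Lib.BinAff
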