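import Mathlib
import Cfsg.Agent.Lib.BinAff4

set_option linter.unusedSimpArgs false
set_option linter.unusedSectionVars false

/-!
# Binary affine groups, part 5: the structure of the group in the plane case
-/

namespace Cfsg.Agent.Lib.BinAff

variable {V : Type*} [AddCommGroup V] {H : Type*} [Group H] [DistribMulAction H V]

/-- the plane property with explicit `q` -/
def Plq (H V : Type*) [AddCommGroup V] [Group H] [DistribMulAction H V] (q : ℕ) : Prop :=
  Nat.card V = q * q ∧ ∀ a : H, E V a → Nat.card (D V a) = q ∧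
    ∃ a' : H, E V a' ∧ F V a = D V a' ∧ F V a' = D V a

section
variable [Finite V] [FaithfulSMul H V] [Finite H]

lemma Plq.cardF {q : ℕ} (hP : Plq H V q) {a : H} (ha : E V a) : Nat.card (F V a) = q := by
  obtain ⟨-, a', ha', h1, -⟩ := hP.2 a ha
  rw [h1]
  exact (hP.2 a' ha').1

lemma Plq.one_lt {q : ℕ} (hy : Hyp H V) (hP : Plq H V q) : 1 < q := by
  obtain ⟨a, ha⟩ := hy.exE
  rw [← (hP.2 a ha).1]
  exact one_lt_D ha

lemma Plq.exF {q : ℕ} (_hy : Hyp H V) (hP : Plq H V q) {a : H} (ha : E V a) :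
    ∃ v ∈ F V a, v ≠ 0 := by
  obtain ⟨-, a', ha', h1, -⟩ := hP.2 a ha
  rw [h1]
  exact ha'.exD

lemma Plq.p1 {q : ℕ} (hy : Hyp H V) (hP : Plq H V q) (x : V) : ∃ t : H, E V t ∧ x ∈ D V t := by
  obtain ⟨h, hne, hx⟩ := hy.st x
  obtain ⟨b, hb, hle⟩ := exists_E (V := V) hne
  obtain ⟨-, b', hb', h1, -⟩ := hP.2 b hb
  exact ⟨b', hb', by rw [← h1]; exact hle hx⟩

lemma Plq.p2 {q : ℕ} (hy : Hyp H V) (hP : Plq H V q) {x : V} (hx : x ≠ 0) :
    ∃ t : H, E V t ∧ t • x = x ∧ ∀ h : H, h • x = x → h = 1 ∨ h = t := by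
  obtain ⟨t', ht', hxt'⟩ := hP.p1 hy x
  obtain ⟨-, t, ht, h1, h3⟩ := hP.2 t' ht'
  -- `F t = D t'`, `F t' = D t`
  have hle : ∀ h : H, h ≠ 1 → h • x = x → F V h ≤ F V t := by
    intro h hne hhx
    obtain ⟨b, hb, hle⟩ := exists_E (V := V) hne
    obtain ⟨-, b', hb', h4, h5⟩ := hP.2 b hb
    have h6 : x ∈ D V b' := by rw [← h4]; exact hle hhx
    have h7 := hb'.uniq hy.bin ht' hx h6 hxt'
    subst h7
    rw [h3, ← h4]
    exact hle
  refine ⟨t, ht, by rw [← mem_F, h3]; exact hxt', fun h hhx => ?_⟩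
  by_cases hne : h = 1
  · exact Or.inl hne
  right
  have h4 := hle h hne hhx
  by_cases h5 : ∃ u, u ≠ 0 ∧ u ∈ D V h ∧ u ∈ D V t
  · obtain ⟨u, hu0, hu1, hu2⟩ := h5
    obtain ⟨y, hy1⟩ := mem_D.mp hu1
    have h6 : t • y = y + u := (ht.key' hy.bin hu0 hu2 y).mp ⟨h, hy1⟩
    have h7 : y ∉ F V t := by
      intro hc
      rw [mem_F, h6] at hc
      exact hu0 (by simpa using hc)
    by_contra h8
    have h9 : h⁻¹ * t ≠ 1 := fun e => h8 (inv_mul_eq_one.mp e)
    have h10 : (h⁻¹ * t) • x = x := by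
      rw [mul_smul, inv_smul_eq_iff, hhx, ← mem_F, h3]
      exact hxt'
    have h11 : y ∈ F V (h⁻¹ * t) := by
      rw [mem_F, mul_smul, inv_smul_eq_iff, hy1, h6]
    exact h7 (hle _ h9 h10 h11)
  · exfalso
    push Not at h5
    have h6 := card_inf_bot (A := D V h) (B := D V t) (fun u hu1 hu2 => by
      by_contra hu
      exact h5 u hu hu1 hu2)
    rw [(hP.2 t ht).1, hP.1] at h6
    have hq : 0 < q := lt_trans Nat.zero_lt_one (hP.one_lt hy)
    have h7 : Nat.card (D V h) ≤ q := Nat.le_of_mul_le_mul_right h6 hq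
    have h8 := card_mul (V := V) h
    rw [hP.1] at h8
    have h9 : q ≤ Nat.card (F V h) := by
      have : q * q ≤ q * Nat.card (F V h) := by
        rw [← h8]; exact Nat.mul_le_mul_right _ h7
      exact Nat.le_of_mul_le_mul_left this hq
    have h10 : F V h = F V t := AddSubgroup.eq_of_le_of_card_ge h4 (by rw [hP.cardF ht]; exact h9)
    have h11 : E V h := ⟨hne, fun g hg hle' => by rw [h10] at hle' ⊢; exact ht.2 g hg hle'⟩
    obtain ⟨-, h', hh', h12, h13⟩ := hP.2 h h11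
    have h14 : h' = t' := hh'.uniq hy.bin ht' hx (by rw [← h12]; exact hhx) hxt'
    subst h14
    obtain ⟨u, hu, hu0⟩ := ht.exD
    exact h5 u hu0 (by rw [← h13, h1]; exact hu) hu

lemma Plq.p4 {q : ℕ} (hy : Hyp H V) (hP : Plq H V q) {s t : H} (hs : E V s) (ht : E V t)
    (hst : s ≠ t) {v : V} (hv : (s * t) • v = v) : v = 0 := by
  by_contra hv0
  have ss : s⁻¹ = s := inv_eq_of_mul_eq_one_right (hs.sq hy.bin)
  have h1 : t • v = s • v := by
    have := congrArg (fun z => s⁻¹ • z) hv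
    simp only [mul_smul, inv_smul_smul] at this
    rw [this, ss]
  by_cases h3 : t • v = v
  · obtain ⟨r, hr, hrv, h4⟩ := hP.p2 hy hv0
    have e1 := h4 t h3
    have e2 := h4 s (by rw [← h1, h3])
    rcases e1 with e | e
    · exact ht.1 e
    rcases e2 with e' | e'
    · exact hs.1 e'
    exact hst (e'.trans e.symm)
  · exact hst (hs.uniq hy.bin ht (sub_ne_zero.mpr h3) (mem_D.mpr ⟨v, by rw [← h1]; abel⟩)
      (mem_D.mpr ⟨v, by abel⟩))

lemma Plq.EE {q : ℕ} (hy : Hyp H V) (hP : Plq H V q) {s t : H} (hs : E V s) (ht : E V t) :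
    ¬ E V (s * t) := by
  intro h
  by_cases hst : s = t
  · subst hst
    rw [hs.sq hy.bin] at h
    exact h.1 rfl
  · obtain ⟨v, hv, hv0⟩ := hP.exF hy h
    exact hv0 (hP.p4 hy hs ht hst hv)

lemma E.inv' (hy : Hyp H V) {s : H} (hs : E V s) : s⁻¹ = s :=
  inv_eq_of_mul_eq_one_right (hs.sq hy.bin)

lemma Plq.p6 {q : ℕ} (hy : Hyp H V) (hP : Plq H V q) {s : H} (hs : E V s) (h : H)
    (hh : ¬ E V h) : E V (h * s) := by
  obtain ⟨x, hx, hx0⟩ := hP.exF hy hs
  obtain ⟨r, hr, hrx, h4⟩ := hP.p2 hy hx0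
  have hrs : s = r := (h4 s hx).resolve_left hs.1
  subst hrs
  by_cases h5 : h • x = x
  · rcases h4 h h5 with e | e
    · rw [e, one_mul]; exact hs
    · rw [e] at hh; exact absurd hs hh
  · obtain ⟨t, ht, htx⟩ := hP.p1 hy (h • x - x)
    have h6 : t • x = x + (h • x - x) :=
      (ht.key' hy.bin (sub_ne_zero.mpr h5) htx x).mp ⟨h, by abel⟩
    have h7 : (t⁻¹ * h) • x = x := by
      rw [mul_smul, inv_smul_eq_iff, h6]; abel
    rcases h4 _ h7 with e | e
    · have e' : t = h := inv_mul_eq_one.mp e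
      rw [← e'] at hh
      exact absurd ht hh
    · have e' : h = t * s := by rw [← e]; group
      rw [e', mul_assoc, hs.sq hy.bin, mul_one]
      exact ht

lemma Plq.EK {q : ℕ} (hy : Hyp H V) (hP : Plq H V q) {e k : H} (he : E V e) (hk : ¬ E V k) :
    E V (e * k) := by
  have h1 := hP.p6 hy he k hk
  -- `k = t * e`, `e * t` not in `E`
  have h2 := hP.p6 hy he (e * (k * e)) (hP.EE hy he h1)
  have : e * (k * e) * e = e * k := by
    rw [mul_assoc, mul_assoc, he.sq hy.bin, mul_one]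
  rwa [this] at h2

lemma Einv (hy : Hyp H V) {k : H} (h : E V k) : E V k⁻¹ := by
  rw [inv_eq_of_mul_eq_one_right (h.sq hy.bin)]; exact h

/-- the rotation subgroup -/
def Kg {q : ℕ} (hy : Hyp H V) (hP : Plq H V q) : Subgroup H where
  carrier := {h | ¬ E V h}
  one_mem' := fun h => h.1 rfl
  inv_mem' := fun {k} hk h => hk (by simpa using Einv hy h)
  mul_mem' := fun {k l} hk hl h => by
    obtain ⟨s, hs⟩ := hy.exE
    -- `s * k ∈ E`, `(s k) l ∈ E`
    have h1 := hP.EK hy (hP.EK hy hs hk) hl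
    rw [mul_assoc] at h1
    have h2 := hP.EE hy hs h1
    rw [← mul_assoc, hs.sq hy.bin, one_mul] at h2
    exact h2 h

lemma mem_Kg {q : ℕ} (hy : Hyp H V) (hP : Plq H V q) {h : H} : h ∈ Kg hy hP ↔ ¬ E V h := Iff.rfl

lemma Kg.inv {q : ℕ} (hy : Hyp H V) (hP : Plq H V q) {e k : H} (he : E V e)
    (hk : k ∈ Kg hy hP) : e * k * e⁻¹ = k⁻¹ := by
  have h1 := (hP.EK hy he hk).sq hy.bin
  rw [he.inv' hy]
  exact (eq_inv_of_mul_eq_one_left (by rw [← h1]; group))

lemma Kg.comm {q : ℕ} (hy : Hyp H V) (hP : Plq H V q) {k l : H}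
    (hk : k ∈ Kg hy hP) (hl : l ∈ Kg hy hP) : k * l = l * k := by
  obtain ⟨s, hs⟩ := hy.exE
  have h1 := hP.p6 hy hs k hk
  -- `k = t s`
  have h3 := Kg.inv hy hP hs hl
  have h4 := Kg.inv hy hP h1 (inv_mem hl)
  rw [inv_inv] at h4
  have h5 : k * l * k⁻¹ = l := by
    have e1 : k * l * k⁻¹ = k * (s * s) * l * (s * s)⁻¹ * k⁻¹ := by
      rw [hs.sq hy.bin]; group
    have e2 : k * (s * s) * l * (s * s)⁻¹ * k⁻¹ = k * s * (s * l * s⁻¹) * (k * s)⁻¹ := by group
    rw [e1, e2, h3, h4]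
  exact mul_inv_eq_iff_eq_mul.mp h5

/-- `E` has `q + 1` elements -/
lemma Plq.card_E {q : ℕ} (hy : Hyp H V) (hP : Plq H V q) :
    Nat.card {a : H // E V a} = q + 1 := by
  classical
  have : Fintype V := Fintype.ofFinite V
  have : Fintype H := Fintype.ofFinite H
  let s : AddSubgroup V → Finset V := fun W => Finset.univ.filter fun v => v ∈ W
  have hs : ∀ W : AddSubgroup V, (s W).card = Nat.card W := by
    intro W
    rw [Nat.card_eq_fintype_card, Fintype.card_subtype]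
  have hq := hP.one_lt hy
  have h1 : (Finset.univ : Finset V).erase 0 =
      (Finset.univ.filter fun a : H => E V a).biUnion fun a => (s (D V a)).erase 0 := by
    ext v
    simp only [Finset.mem_erase, Finset.mem_univ, and_true, Finset.mem_biUnion,
      Finset.mem_filter, true_and, s]
    constructor
    · intro hv
      obtain ⟨t, ht, hvt⟩ := hP.p1 hy v
      exact ⟨t, ht, hv, hvt⟩
    · rintro ⟨t, -, hv, -⟩
      exact hv
  have h3 := congrArg Finset.card h1
  rw [Finset.card_erase_of_mem (Finset.mem_univ _), Finset.card_univ,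
    ← Nat.card_eq_fintype_card, hP.1, Finset.card_biUnion] at h3
  · have h4 : ∀ a ∈ (Finset.univ.filter fun a : H => E V a),
        ((s (D V a)).erase 0).card = q - 1 := by
      intro a ha
      rw [Finset.card_erase_of_mem, hs, (hP.2 a (by simpa using ha)).1]
      simp only [s, Finset.mem_filter, Finset.mem_univ, true_and]
      exact AddSubgroup.zero_mem _
    rw [Finset.sum_congr rfl h4, Finset.sum_const, smul_eq_mul, ← Fintype.card_subtype,
      ← Nat.card_eq_fintype_card] at h3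
    obtain ⟨k, rfl⟩ : ∃ k, q = k + 2 := ⟨q - 2, by omega⟩
    have e1 : (k + 2) * (k + 2) - 1 = (k + 2 + 1) * (k + 2 - 1) := by
      have : (k + 2) * (k + 2) = (k + 2 + 1) * (k + 1) + 1 := by ring
      rw [this, Nat.add_sub_cancel]
      congr 1
    rw [e1] at h3
    exact (Nat.eq_of_mul_eq_mul_right (by omega) h3).symm
  · intro a ha b hb hab
    rw [Function.onFun, Finset.disjoint_left]
    intro v hv hv'
    simp only [Finset.coe_filter, Finset.mem_univ, true_and, Set.mem_ofPred_eq] at ha hb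
    simp only [Finset.mem_erase, s, Finset.mem_filter, Finset.mem_univ, true_and] at hv hv'
    exact hab (ha.uniq hy.bin hb hv.1 hv.2 hv'.2)

lemma Plq.card_K {q : ℕ} (hy : Hyp H V) (hP : Plq H V q) : Nat.card (Kg hy hP) = q + 1 := by
  rw [← hP.card_E hy]
  obtain ⟨s, hs⟩ := hy.exE
  refine Nat.card_congr ⟨fun k => ⟨k.1 * s, hP.p6 hy hs k.1 k.2⟩,
    fun a => ⟨a.1 * s, hP.EE hy a.2 hs⟩, fun k => ?_, fun a => ?_⟩
  · apply Subtype.ext
    show k.1 * s * s = k.1
    rw [mul_assoc, hs.sq hy.bin, mul_one]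
  · apply Subtype.ext
    show a.1 * s * s = a.1
    rw [mul_assoc, hs.sq hy.bin, mul_one]

/-- `K` acts semiregularly -/
lemma Kg.semi {q : ℕ} (hy : Hyp H V) (hP : Plq H V q) {k : H} (hk : k ∈ Kg hy hP) {x : V}
    (hx : x ≠ 0) (h : k • x = x) : k = 1 := by
  obtain ⟨t, ht, htx, h4⟩ := hP.p2 hy hx
  rcases h4 k h with e | e
  · exact e
  · rw [e] at hk; exact absurd ht hk

/-- `K` is irreducible -/
lemma Kg.irr {q : ℕ} (hy : Hyp H V) (hP : Plq H V q) (U : AddSubgroup V)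
    (hU : ∀ k ∈ Kg hy hP, ∀ v ∈ U, k • v ∈ U) : U = ⊥ ∨ U = ⊤ := by
  by_cases hb : U = ⊥
  · exact Or.inl hb
  right
  obtain ⟨u, hu, hu0⟩ : ∃ u ∈ U, u ≠ 0 := by
    by_contra hcon
    push Not at hcon
    exact hb ((AddSubgroup.eq_bot_iff_forall _).mpr hcon)
  obtain ⟨s, hs⟩ := hy.exE
  -- `W = U ⊓ s U`
  let W : AddSubgroup V :=
    { carrier := {v | v ∈ U ∧ s • v ∈ U}
      zero_mem' := ⟨U.zero_mem, by rw [smul_zero]; exact U.zero_mem⟩
      add_mem' := fun {x y} hx hy => ⟨U.add_mem hx.1 hy.1, by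
        rw [smul_add]; exact U.add_mem hx.2 hy.2⟩
      neg_mem' := fun {x} hx => ⟨U.neg_mem hx.1, by rw [smul_neg]; exact U.neg_mem hx.2⟩ }
  have hW : ∀ (h : H) (v : V), v ∈ W → h • v ∈ W := by
    rintro h v ⟨hv1, hv2⟩
    by_cases hh : E V h
    · have h1 : h * s ∈ Kg hy hP := hP.EE hy hh hs
      have h3 : s * h ∈ Kg hy hP := hP.EE hy hs hh
      refine ⟨?_, ?_⟩
      · have := hU _ h1 _ hv2
        rwa [mul_smul, ← mul_smul s s, hs.sq hy.bin, one_smul] at this
      · have := hU _ h3 _ hv1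
        rwa [mul_smul] at this
    · refine ⟨hU h hh v hv1, ?_⟩
      have h1 := Kg.inv hy hP hs (show h ∈ Kg hy hP from hh)
      have h3 : s * h = h⁻¹ * s := by rw [← h1]; group
      have h4 := hU h⁻¹ (inv_mem (show h ∈ Kg hy hP from hh)) _ hv2
      rw [← mul_smul, h3, mul_smul]
      exact h4
  rcases hy.irr W hW with h | h
  · exfalso
    -- cardinalities
    have h1 : Nat.card U * Nat.card U ≤ Nat.card V := by
      rw [← Nat.card_prod]
      refine Nat.card_le_card_of_injective (fun p : U × U => (p.1.1 + s • p.2.1 : V)) ?_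
      rintro ⟨⟨x, hx⟩, ⟨y, hy'⟩⟩ ⟨⟨x', hx'⟩, ⟨y', hy''⟩⟩ hxy
      have hxy' : x + s • y = x' + s • y' := hxy
      have e1 : x - x' = s • (y' - y) := by
        have : x - x' = (x + s • y) - s • y - x' := by abel
        rw [this, hxy', smul_sub]; abel
      have e2 : y' - y ∈ W := ⟨U.sub_mem hy'' hy', by rw [← e1]; exact U.sub_mem hx hx'⟩
      rw [h, AddSubgroup.mem_bot] at e2
      rw [e2, smul_zero] at e1
      have e3 := sub_eq_zero.mp e1
      have e4 := sub_eq_zero.mp e2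
      subst e3 e4
      rfl
    have h3 : Nat.card (Kg hy hP) ≤ Nat.card U := by
      refine Nat.card_le_card_of_injective (fun k : Kg hy hP => (⟨k.1 • u, hU k.1 k.2 u hu⟩ : U)) ?_
      rintro ⟨k, hk⟩ ⟨l, hl⟩ hkl
      have hkl' : k • u = l • u := congrArg (fun z : U => z.1) hkl
      have := Kg.semi hy hP (mul_mem (inv_mem hl) hk) hu0 (by
        rw [mul_smul, hkl', inv_smul_smul])
      exact Subtype.ext (inv_mul_eq_one.mp this).symm
    rw [hP.card_K hy] at h3
    rw [hP.1] at h1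
    have := Nat.mul_le_mul h3 h3
    nlinarith
  · rw [eq_top_iff]
    intro v _
    have : v ∈ W := by rw [h]; trivial
    exact this.1

end

end Cfsg.Agent.Lib.BinAff
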