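import Mathlib
import Cfsg.Agent.Lib.BinAff5

set_option linter.unusedSimpArgs false
set_option linter.unusedSectionVars false

/-!
# Binary affine groups, part 6: the field
-/

namespace Cfsg.Agent.Lib.BinAff

lemma field_of_irr {V : Type*} [AddCommGroup V] [Finite V] (S : Set (AddMonoid.End V))
    (hcomm : ∀ x ∈ S, ∀ y ∈ S, x * y = y * x)
    (hirr : ∀ U : AddSubgroup V, (∀ f ∈ S, ∀ v ∈ U, f v ∈ U) → U = ⊥ ∨ U = ⊤)
    (x0 : V) (hx0 : x0 ≠ 0) (E : Type) [Field E] [Fintype E] (hE : Nat.card E = Nat.card V) :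
    ∃ e : V ≃+ E, ∃ ψ : (Subring.closure S) ≃+* E, e x0 = 1 ∧
      ∀ (a : Subring.closure S) (v : V), e (a.1 v) = ψ a * e v := by
  classical
  have hcm : IsMulCommutative (Subring.closure S) := Subring.isMulCommutative_closure hcomm
  let _ : CommRing (Subring.closure S) :=
    { (Subring.closure S).toRing with mul_comm := hcm.is_comm.comm }
  have hc : ∀ a : Subring.closure S, ∀ f ∈ S, a.1 * f = f * a.1 := by
    intro a f hf
    have : a * ⟨f, Subring.subset_closure hf⟩ = ⟨f, Subring.subset_closure hf⟩ * a := mul_comm _ _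
    exact congrArg Subtype.val this
  have hinj : ∀ a : Subring.closure S, a ≠ 0 → ∀ v, a.1 v = 0 → v = 0 := by
    intro a ha v hv
    let KA : AddSubgroup V :=
      { carrier := {v | a.1 v = 0}
        zero_mem' := map_zero a.1
        add_mem' := fun {x y} hx hy => by
          show a.1 (x + y) = 0
          rw [map_add, show a.1 x = 0 from hx, show a.1 y = 0 from hy, add_zero]
        neg_mem' := fun {x} hx => by
          show a.1 (-x) = 0
          rw [map_neg, show a.1 x = 0 from hx, neg_zero] }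
    rcases hirr KA (by
      intro f hf w hw
      have h1 := congrArg (fun g : AddMonoid.End V => g w) (hc a f hf)
      have h2 : a.1 (f w) = f (a.1 w) := h1
      have h3 : a.1 w = 0 := hw
      show a.1 (f w) = 0
      rw [h2, h3, map_zero]) with h | h
    · have : v ∈ KA := hv
      rw [h] at this
      simpa using this
    · exfalso
      apply ha
      apply Subtype.ext
      apply AddMonoidHom.ext
      intro w
      have : w ∈ KA := by rw [h]; trivial
      exact this
  have hfin : Finite (AddMonoid.End V) := by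
    have : Finite (V →+ V) := DFunLike.finite _
    exact this
  have hfin' : Finite (Subring.closure S) := Subtype.finite
  have hnt : Nontrivial (Subring.closure S) := ⟨⟨0, 1, fun h => hx0 (by
    have := congrArg (fun a : Subring.closure S => a.1 x0) h
    exact this.symm)⟩⟩
  have hnz : NoZeroDivisors (Subring.closure S) := ⟨fun {a b} hab => by
    by_contra hcon
    push Not at hcon
    apply hcon.2
    apply Subtype.ext
    apply AddMonoidHom.ext
    intro w
    apply hinj a hcon.1
    exact congrArg (fun a : Subring.closure S => a.1 w) hab⟩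
  have hdom : IsDomain (Subring.closure S) := NoZeroDivisors.to_isDomain _
  let ev : Subring.closure S →+ V :=
    { toFun := fun a => a.1 x0
      map_zero' := rfl
      map_add' := fun _ _ => rfl }
  have hev1 : Function.Injective ev := by
    rw [injective_iff_map_eq_zero]
    intro a ha
    by_contra hne
    exact hx0 (hinj a hne x0 ha)
  have hev2 : Function.Surjective ev := by
    rcases hirr ev.range (by
      rintro f hf _ ⟨a, rfl⟩
      exact ⟨⟨f, Subring.subset_closure hf⟩ * a, rfl⟩) with h | h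
    · exfalso
      have : x0 ∈ ev.range := ⟨1, rfl⟩
      rw [h] at this
      exact hx0 (by simpa using this)
    · exact AddMonoidHom.range_eq_top.mp h
  let ee : Subring.closure S ≃+ V := AddEquiv.ofBijective ev ⟨hev1, hev2⟩
  let _ : Fintype (Subring.closure S) := Fintype.ofFinite _
  let _ : Field (Subring.closure S) := Fintype.fieldOfDomain _
  let ψ : Subring.closure S ≃+* E := FiniteField.ringEquivOfCardEq (by
    rw [← Nat.card_eq_fintype_card, ← Nat.card_eq_fintype_card, hE]
    exact Nat.card_congr ee.toEquiv)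
  refine ⟨ee.symm.trans ψ.toAddEquiv, ψ, ?_, ?_⟩
  · have : ee 1 = x0 := rfl
    rw [← this]
    simp
  · intro a v
    obtain ⟨b, rfl⟩ := ee.surjective v
    have : (a.1 : AddMonoid.End V) (ee b) = ee (a * b) := rfl
    rw [this]
    simp

open Polynomial in
lemma exists_of_pow {E : Type} [Field E] [Fintype E] {K : Type*} [Finite K] {n : ℕ} (hn : 0 < n)
    (hK : Nat.card K = n) (f : K → E) (hf : Function.Injective f) (hf' : ∀ k, f k ^ n = 1)
    (a : E) (ha : a ^ n = 1) : ∃ k, f k = a := by
  classical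
  have hmem : ∀ x : E, x ∈ nthRootsFinset n (1 : E) ↔ x ^ n = 1 := fun x => mem_nthRootsFinset hn 1
  have h1 : (nthRootsFinset n (1 : E)).card ≤ n := by
    unfold nthRootsFinset
    exact (Multiset.toFinset_card_le _).trans (card_nthRoots n 1)
  let g : K → {x // x ∈ nthRootsFinset n (1 : E)} := fun k => ⟨f k, (hmem _).mpr (hf' k)⟩
  have hg : Function.Injective g := fun x y hxy => hf (congrArg Subtype.val hxy)
  have hbij : Function.Bijective g := by
    refine (Nat.bijective_iff_injective_and_card _).mpr ⟨hg, ?_⟩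
    refine le_antisymm (Nat.card_le_card_of_injective g hg) ?_
    rw [hK, Nat.card_eq_fintype_card, Fintype.card_coe]
    exact h1
  obtain ⟨k, hk⟩ := hbij.2 ⟨a, (hmem a).mpr ha⟩
  exact ⟨k, congrArg Subtype.val hk⟩

variable {V : Type*} [AddCommGroup V] {H : Type*} [Group H] [DistribMulAction H V]

/-- the conclusion for the affine pair `(H, V)` -/
def Concl (H V : Type*) [AddCommGroup V] [Group H] [DistribMulAction H V] : Prop :=
  ∃ (F E : Type) (_ : Field F) (_ : Fintype F) (_ : Field E) (_ : Fintype E) (_ : Algebra F E)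
    (e : V ≃+ E), Module.finrank F E = 2 ∧
    (∀ h : H, ∃ (a : E) (φ : E ≃ₐ[F] E), Algebra.norm F a = 1 ∧ ∀ v, e (h • v) = a * φ (e v)) ∧
    (∀ (a : E) (φ : E ≃ₐ[F] E), Algebra.norm F a = 1 → ∃ h : H, ∀ v, e (h • v) = a * φ (e v))

theorem plane_final [Finite V] [FaithfulSMul H V] [Finite H] {p : ℕ} (hp : p.Prime)
    (hpV : ∀ v : V, p • v = 0) (hy : Hyp H V) {q : ℕ} (hP : Plq H V q) : Concl H V := by
  classical
  have : Fact p.Prime := ⟨hp⟩
  -- `q` is a power of `p`
  have hq1 := hP.one_lt hy
  obtain ⟨m, hm⟩ : ∃ m, q = p ^ m := by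
    let _ : Module (ZMod p) V := AddCommGroup.zmodModule hpV
    have h1 := FiniteField.pow_finrank_eq_natCard p V
    rw [hP.1] at h1
    obtain ⟨m, -, hm⟩ := (Nat.dvd_prime_pow hp).mp
      (show q ∣ p ^ Module.finrank (ZMod p) V from ⟨q, h1⟩)
    exact ⟨m, hm⟩
  have hm0 : m ≠ 0 := by
    rintro rfl
    rw [hm, pow_zero] at hq1
    exact lt_irrefl _ hq1
  let F' := GaloisField p m
  have hF : Nat.card F' = q := by rw [hm]; exact GaloisField.card p m hm0
  let E' := FiniteField.Extension F' p 2
  have hE : Nat.card E' = Nat.card V := by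
    rw [FiniteField.natCard_extension, hF, hP.1, pow_two]
  let fF : Fintype F' := Fintype.ofFinite F'
  let fE : Fintype E' := Fintype.ofFinite E'
  have hfr : Module.finrank F' E' = 2 := FiniteField.finrank_extension F' p 2
  have hnorm : ∀ a : E', Algebra.norm F' a = 1 ↔ a ^ (q + 1) = 1 := by
    intro a
    have h1 := FiniteField.algebraMap_norm_eq_pow_sum F' E' a
    rw [hfr, Finset.sum_range_succ, Finset.sum_range_one, pow_zero, pow_one, hF, add_comm] at h1
    rw [← h1]
    constructor
    · intro h; rw [h, map_one]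
    · intro h
      exact (algebraMap F' E').injective (by rw [h, map_one])
  -- the point `x0`
  obtain ⟨s, hs⟩ := hy.exE
  obtain ⟨x0, hx0, hx0'⟩ := hP.exF hy hs
  let κ : H →* AddMonoid.End V := DistribMulAction.toAddMonoidEnd H V
  have hκ : ∀ (h : H) (v : V), κ h v = h • v := fun _ _ => rfl
  have hκinj : Function.Injective κ := by
    intro a b hab
    refine FaithfulSMul.eq_of_smul_eq_smul (α := V) fun v => ?_
    rw [← hκ, hab, hκ]
  let S : Set (AddMonoid.End V) := κ '' (Kg hy hP : Set H)
  obtain ⟨e, ψ, he0, he⟩ := field_of_irr S (by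
      rintro _ ⟨k, hk, rfl⟩ _ ⟨l, hl, rfl⟩
      rw [← map_mul, Kg.comm hy hP hk hl, map_mul])
    (fun U hU => Kg.irr hy hP U fun k hk v hv => hU (κ k) ⟨k, hk, rfl⟩ v hv) x0 hx0' E' hE
  let κ' : Kg hy hP → Subring.closure S := fun k => ⟨κ k.1, Subring.subset_closure ⟨k.1, k.2, rfl⟩⟩
  have hκ'inj : Function.Injective κ' := by
    intro a b hab
    exact Subtype.ext (hκinj (congrArg Subtype.val hab))
  have hκ'mul : ∀ a b, κ' (a * b) = κ' a * κ' b := by
    intro a b
    apply Subtype.ext
    exact map_mul κ a.1 b.1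
  have hκ'one : κ' 1 = 1 := Subtype.ext (map_one κ)
  have hκ'pow : ∀ a (n : ℕ), κ' (a ^ n) = κ' a ^ n := by
    intro a n
    induction n with
    | zero => rw [pow_zero, pow_zero, hκ'one]
    | succ n ih => rw [pow_succ, pow_succ, hκ'mul, ih]
  have hKcard : Nat.card (Kg hy hP) = q + 1 := hP.card_K hy
  have hKpow : ∀ k : Kg hy hP, k ^ (q + 1) = 1 := by
    intro k
    rw [← hKcard]
    exact pow_card_eq_one'
  have hψpow : ∀ k : Kg hy hP, ψ (κ' k) ^ (q + 1) = 1 := by
    intro k
    rw [← map_pow, ← hκ'pow, hKpow, hκ'one, map_one]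
  have hsurj : ∀ a : E', a ^ (q + 1) = 1 → ∃ k : Kg hy hP, ψ (κ' k) = a := by
    intro a ha
    exact exists_of_pow (Nat.succ_pos q) hKcard (fun k => ψ (κ' k))
      (ψ.injective.comp hκ'inj) hψpow a ha
  have hek : ∀ (k : Kg hy hP) (v : V), e (k.1 • v) = ψ (κ' k) * e v := fun k v => he (κ' k) v
  -- the Frobenius
  let fr : E' ≃ₐ[F'] E' := FiniteField.Extension.frob F' p 2
  have hfr' : ∀ x : E', fr x = x ^ q := by
    intro x
    have := FiniteField.Extension.frob_apply F' p 2 (x := x)
    rw [hF] at this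
    exact this
  have hss : ∀ v : V, s • s • v = v := fun v => by rw [← mul_smul, hs.sq hy.bin, one_smul]
  have hfrob : ∀ (a : AddMonoid.End V) (ha : a ∈ Subring.closure S), ∀ v : V,
      s • (a (s • v)) = (ψ.symm (fr (ψ ⟨a, ha⟩))).1 v := by
    intro a ha
    induction ha using Subring.closure_induction with
    | mem x hx =>
      intro v
      obtain ⟨k, hk, rfl⟩ := hx
      have h1 : (⟨κ k, Subring.subset_closure ⟨k, hk, rfl⟩⟩ : Subring.closure S) = κ' ⟨k, hk⟩ := rfl
      have h3 : (κ' ⟨k, hk⟩) ^ q = κ' ⟨k, hk⟩⁻¹ := by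
        rw [← hκ'pow]
        congr 1
        have h4 := hKpow ⟨k, hk⟩
        rw [pow_succ] at h4
        exact eq_inv_of_mul_eq_one_left h4
      rw [h1, hfr', ← map_pow, ψ.symm_apply_apply, h3]
      show s • (κ k (s • v)) = k⁻¹ • v
      rw [hκ, ← Kg.inv hy hP hs hk, hs.inv' hy, mul_smul, mul_smul]
    | zero =>
      intro v
      have : (⟨0, Subring.zero_mem _⟩ : Subring.closure S) = 0 := rfl
      rw [this, map_zero, map_zero, map_zero]
      show s • (0 : V) = 0
      rw [smul_zero]
    | one =>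
      intro v
      have : (⟨1, Subring.one_mem _⟩ : Subring.closure S) = 1 := rfl
      rw [this, map_one, map_one, map_one]
      show s • (s • v) = v
      exact hss v
    | add x y hx hy' ihx ihy =>
      intro v
      have : (⟨x + y, Subring.add_mem _ hx hy'⟩ : Subring.closure S) = ⟨x, hx⟩ + ⟨y, hy'⟩ := rfl
      rw [this, map_add, map_add, map_add]
      show s • (x (s • v) + y (s • v)) = (ψ.symm (fr (ψ ⟨x, hx⟩))).1 v +
        (ψ.symm (fr (ψ ⟨y, hy'⟩))).1 v
      rw [smul_add, ihx, ihy]
    | neg x hx ihx =>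
      intro v
      have : (⟨-x, Subring.neg_mem _ hx⟩ : Subring.closure S) = -⟨x, hx⟩ := rfl
      rw [this, map_neg, map_neg, map_neg]
      show s • (-(x (s • v))) = -((ψ.symm (fr (ψ ⟨x, hx⟩))).1 v)
      rw [smul_neg, ihx]
    | mul x y hx hy' ihx ihy =>
      intro v
      have : (⟨x * y, Subring.mul_mem _ hx hy'⟩ : Subring.closure S) = ⟨x, hx⟩ * ⟨y, hy'⟩ := rfl
      rw [this, map_mul, map_mul, map_mul]
      show s • (x (y (s • v))) = (ψ.symm (fr (ψ ⟨x, hx⟩))).1 ((ψ.symm (fr (ψ ⟨y, hy'⟩))).1 v)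
      rw [← ihy, ← ihx, hss]
  have hes : ∀ v : V, e (s • v) = fr (e v) := by
    intro v
    set a := ψ.symm (e v) with ha
    have h1 : v = a.1 x0 := by
      apply e.injective
      rw [he, he0, ha, ψ.apply_symm_apply, mul_one]
    have h3 := hfrob a.1 a.2 x0
    rw [mem_F.mp hx0, ← h1] at h3
    rw [h3, he, he0, mul_one, ψ.apply_symm_apply]
    congr 1
    exact ψ.apply_symm_apply _
  refine ⟨F', E', inferInstance, fF, inferInstance, fE, inferInstance, e, hfr, ?_, ?_⟩
  · intro h
    by_cases hh : E V h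
    · have h1 : h * s ∈ Kg hy hP := hP.EE hy hh hs
      refine ⟨ψ (κ' ⟨h * s, h1⟩), fr, (hnorm _).mpr (hψpow _), fun v => ?_⟩
      have h3 := hek ⟨h * s, h1⟩ (s • v)
      rw [hes] at h3
      rw [← h3]
      congr 1
      show h • v = (h * s) • s • v
      rw [mul_smul, hss]
    · refine ⟨ψ (κ' ⟨h, hh⟩), 1, (hnorm _).mpr (hψpow _), fun v => ?_⟩
      exact hek ⟨h, hh⟩ v
  · intro a φ ha
    obtain ⟨k, hk⟩ := hsurj a ((hnorm a).mp ha)
    obtain ⟨i, hi, rfl⟩ := FiniteField.Extension.exists_frob_pow_eq F' p 2 φ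
    interval_cases i
    · refine ⟨k.1, fun v => ?_⟩
      rw [hek, hk, pow_zero]
      rfl
    · refine ⟨k.1 * s, fun v => ?_⟩
      rw [mul_smul, hek, hk, hes, pow_one]

end Cfsg.Agent.Lib.BinAff
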