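import Mathlib
import Cfsg.Agent.Lib.BinAff6

set_option linter.unusedSimpArgs false
set_option linter.unusedSectionVars false

/-!
# Binary affine groups, part 7: the main theorem for pairs `(H, V)`
-/

namespace Cfsg.Agent.Lib.BinAff

variable {V : Type*} [AddCommGroup V] {H : Type*} [Group H] [DistribMulAction H V]

theorem affine_main [Finite V] [FaithfulSMul H V] [Finite H] (hb : Bin H V) (hirr : Irr H V)
    (hnt : ∃ v : V, v ≠ 0) : ((Nat.card V).Prime ∧ Nat.card H ≤ 2) ∨ Concl H V := by
  obtain ⟨v0, hv0⟩ := hnt
  have hcard : Nat.card V ≠ 1 := by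
    intro h
    have := (Nat.card_eq_one_iff_unique.mp h).1
    exact hv0 (Subsingleton.elim _ _)
  obtain ⟨p, hp, hpd⟩ := Nat.exists_prime_and_dvd hcard
  have : Fact p.Prime := ⟨hp⟩
  -- exponent `p`
  have hpV : ∀ v : V, p • v = 0 := by
    let U : AddSubgroup V :=
      { carrier := {v | p • v = 0}
        zero_mem' := smul_zero p
        add_mem' := fun {x y} hx hy => by
          show p • (x + y) = 0
          rw [smul_add, show p • x = 0 from hx, show p • y = 0 from hy, add_zero]
        neg_mem' := fun {x} hx => by
          show p • (-x) = 0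
          rw [smul_neg, show p • x = 0 from hx, neg_zero] }
    rcases hirr U (fun h v hv => by
      show p • (h • v) = 0
      rw [← smul_comm h p v, show p • v = 0 from hv, smul_zero]) with h | h
    · exfalso
      obtain ⟨x, hx⟩ := exists_prime_addOrderOf_dvd_card' p hpd
      have h1 : x ∈ U := by
        show p • x = 0
        rw [← hx]; exact addOrderOf_nsmul_eq_zero x
      rw [h, AddSubgroup.mem_bot] at h1
      rw [h1, addOrderOf_zero] at hx
      exact hp.one_lt.ne hx
    · intro v
      have : v ∈ U := by rw [h]; trivial
      exact this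
  by_cases hst : ∀ v : V, ∃ h : H, h ≠ 1 ∧ h • v = v
  · right
    have hy : Hyp H V := ⟨hb, hirr, hst, v0, hv0⟩
    have hP : Plane H V := by
      by_cases h2 : p = 2
      · subst h2
        exact plane_two hy fun v => by rw [← two_nsmul]; exact hpV v
      · refine plane_odd hp hpV hy fun v hv => ?_
        rw [← two_nsmul] at hv
        have h3 : addOrderOf v ∣ 2 := addOrderOf_dvd_of_nsmul_eq_zero hv
        have h4 : addOrderOf v ∣ p := addOrderOf_dvd_of_nsmul_eq_zero (hpV v)
        have h5 : Nat.Coprime 2 p := (Nat.coprime_primes Nat.prime_two hp).mpr (Ne.symm h2)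
        have h6 : addOrderOf v ∣ 1 := by
          rw [← h5]
          exact Nat.dvd_gcd h3 h4
        exact AddMonoid.addOrderOf_eq_one_iff.mp (Nat.dvd_one.mp h6)
    obtain ⟨q, hq⟩ := hP
    exact plane_final hp hpV hy (q := q) hq
  · left
    push Not at hst
    obtain ⟨v1, hv1⟩ := hst
    have hreg : ∀ h : H, h • v1 = v1 → h = 1 := fun h hh => by
      by_contra hne
      exact hv1 h hne hh
    have hsq : ∀ a : H, a * a = 1 := by
      intro a
      obtain ⟨h, -, h1, h3⟩ := hb.swap1 ∅ a (fun _ h => absurd h (Set.notMem_empty _)) v1
      have h4 : a⁻¹ * h = 1 := hreg _ (by rw [mul_smul, h1, inv_smul_smul])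
      have h5 : h = a := (inv_mul_eq_one.mp h4).symm
      subst h5
      exact hreg _ (by rw [mul_smul, h3])
    have hinv : ∀ a : H, a⁻¹ = a := fun a => inv_eq_of_mul_eq_one_right (hsq a)
    have hcomm : ∀ a b : H, a * b = b * a := by
      intro a b
      rw [← hinv (a * b), mul_inv_rev, hinv, hinv]
    have hneg : ∀ a : H, a ≠ 1 → ∀ v : V, a • v = -v := by
      intro a ha v
      rcases hirr (F V a) (fun h w hw => by
        rw [mem_F, ← mul_smul, hcomm, mul_smul, mem_F.mp hw]) with h | h
      · have h1 : v + a • v ∈ F V a := by
          rw [mem_F, smul_add, ← mul_smul, hsq, one_smul, add_comm]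
        rw [h, AddSubgroup.mem_bot] at h1
        exact eq_neg_of_add_eq_zero_right h1
      · exfalso
        refine ha (eq_one_of_fix (V := V) fun w => ?_)
        have : w ∈ F V a := by rw [h]; trivial
        exact this
    refine ⟨?_, ?_⟩
    · rcases hirr (AddSubgroup.zmultiples v0) (fun h w hw => by
        by_cases hh : h = 1
        · rw [hh, one_smul]; exact hw
        · rw [hneg h hh]; exact AddSubgroup.neg_mem _ hw) with h | h
      · exact absurd (AddSubgroup.zmultiples_eq_bot.mp h) hv0
      · have h1 : Nat.card V = addOrderOf v0 := by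
          rw [← Nat.card_zmultiples, h, AddSubgroup.card_top]
        rw [h1]
        rcases (Nat.dvd_prime hp).mp (addOrderOf_dvd_of_nsmul_eq_zero (hpV v0)) with h3 | h3
        · exact absurd (AddMonoid.addOrderOf_eq_one_iff.mp h3) hv0
        · rw [h3]; exact hp
    · by_contra hcon
      push Not at hcon
      obtain ⟨a, ha⟩ : ∃ a : H, a ≠ 1 := by
        by_contra hc
        push Not at hc
        have : Subsingleton H := ⟨fun x y => (hc x).trans (hc y).symm⟩
        rw [Nat.card_unique] at hcon
        omega
      have hall : ∀ b : H, b = 1 ∨ b = a := by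
        intro b
        by_cases hb' : b = 1
        · exact Or.inl hb'
        · right
          refine FaithfulSMul.eq_of_smul_eq_smul (α := V) fun v => ?_
          rw [hneg a ha, hneg b hb']
      classical
      have : Fintype H := Fintype.ofFinite H
      have h1 : (Finset.univ : Finset H) ⊆ {1, a} := by
        intro b _
        rw [Finset.mem_insert, Finset.mem_singleton]
        exact hall b
      have h3 := (Finset.card_le_card h1).trans Finset.card_le_two
      rw [Finset.card_univ, ← Nat.card_eq_fintype_card] at h3
      omega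

end Cfsg.Agent.Lib.BinAff
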