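import Mathlib
import Cfsg.Agent.Lib.BinAct
import Cfsg.Agent.Lib.BinPslA

/-!
# Binary actions of `PSL₂(q)`: involutions (helper14)
-/

set_option autoImplicit false

namespace Cfsg.Agent.Lib.BinPslB

open Matrix Cfsg.Agent.Lib.SL2Basic Cfsg.Agent.Lib.SL2Tori Cfsg.Agent.Lib.ClSL2 Cfsg.Agent.Lib.BinAct
  Cfsg.Agent.Lib.BinPslA MulAction
open scoped MatrixGroups

universe u

variable {F : Type u} [Field F]

local notation "SL2" => Matrix.SpecialLinearGroup (Fin 2) F
local notation "M2" => Matrix (Fin 2) (Fin 2) F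
local notation "PSL2" => Matrix.ProjectiveSpecialLinearGroup (Fin 2) F

section gen

variable {G X : Type*} [Group G] [Finite G] [IsSimpleGroup G] [MulAction G X]

/-- the setting: one class of involutions, and an involution fixes a point -/
structure Setup (G X : Type*) [Group G] [MulAction G X] : Prop where
  bin : Bin G X
  conj : ∀ s t : G, s ≠ 1 → s * s = 1 → t ≠ 1 → t * t = 1 → ∃ g : G, g * s * g⁻¹ = t
  fix : ∀ t : G, t ≠ 1 → t * t = 1 → ∃ x : X, t • x = x
  ne_top : ∀ x : X, stabilizer G x ≠ ⊤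

variable (hS : Setup G X)

include hS

omit [Finite G] [IsSimpleGroup G] in
theorem KK_ne_top {t : G} (h1 : t ≠ 1) (h : t * t = 1) : KK X t ≠ ⊤ := by
  obtain ⟨x, hx⟩ := hS.fix t h1 h
  intro e
  apply hS.ne_top x
  rw [eq_top_iff, ← e]
  exact KK_le_stabilizer hx

omit [IsSimpleGroup G] in
theorem KK_eq {s t : G} (hs1 : s ≠ 1) (hs : s * s = 1) (ht1 : t ≠ 1) (ht : t * t = 1) (h : s ∈ KK X t) :
    KK X s = KK X t := by
  obtain ⟨g, hg⟩ := hS.conj t s ht1 ht hs1 hs
  exact KK_eq_of_mem hg h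

omit [Finite G] in
/-- a non-trivial subgroup contained in some `KK` is not normalized by the whole group -/
theorem eq_bot_of_normal {t : G} (ht1 : t ≠ 1) (ht : t * t = 1) (N : Subgroup G) (hN : N ≤ KK X t)
    (M : Subgroup G) (hM : M = ⊤) (hMN : ∀ g ∈ M, ∀ n ∈ N, g * n * g⁻¹ ∈ N) : N = ⊥ := by
  have hnor : N.Normal := ⟨fun n hn g => hMN g (by rw [hM]; trivial) n hn⟩
  refine hnor.eq_bot_or_eq_top.resolve_right fun h => KK_ne_top hS ht1 ht ?_
  rw [eq_top_iff, ← h]; exact hN

/-- the elements normalizing a subgroup -/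
def nor (N : Subgroup G) : Subgroup G := Subgroup.normalizer (N : Set G)

omit [Finite G] [IsSimpleGroup G] hS in
theorem mem_nor [Finite G] {N : Subgroup G} {g : G} (h : ∀ n ∈ N, g * n * g⁻¹ ∈ N) : g ∈ nor N := by
  rw [nor, Subgroup.mem_normalizer_iff]
  have hsub : N.map (MulAut.conj g).toMonoidHom ≤ N := by
    rintro _ ⟨n, hn, rfl⟩
    exact h n hn
  have heq : N.map (MulAut.conj g).toMonoidHom = N := by
    apply Subgroup.eq_of_le_of_card_ge hsub
    rw [Subgroup.card_map_of_injective (MulAut.conj g).injective]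
  intro n
  refine ⟨h n, fun hn => ?_⟩
  have : g * n * g⁻¹ ∈ N.map (MulAut.conj g).toMonoidHom := by rw [heq]; exact hn
  obtain ⟨m, hm, hmn⟩ := this
  have : m = n := (MulAut.conj g).injective hmn
  rw [← this]; exact hm

omit [Finite G] [IsSimpleGroup G] hS in
theorem conj_mem_of_nor {N : Subgroup G} {g n : G} (h : g ∈ nor N) (hn : n ∈ N) : g * n * g⁻¹ ∈ N :=
  (Subgroup.mem_normalizer_iff.1 h n).1 hn

end gen

section two

variable [Fintype F] (h2 : (2 : F) = 0) {X : Type*}
  [MulAction (Matrix.ProjectiveSpecialLinearGroup (Fin 2) F) X] [Finite X]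
  [IsSimpleGroup (Matrix.ProjectiveSpecialLinearGroup (Fin 2) F)]
  (hS : Setup (Matrix.ProjectiveSpecialLinearGroup (Fin 2) F) X)

include h2 hS

/-- `KK t` contains the centralizer of `t`. -/
theorem centralizer_le_KK {g h : PSL2} (hg1 : g ≠ 1) (hg : g * g = 1) (hh : h * g = g * h) : h ∈ KK X g := by
  by_cases hh1 : h = 1
  · rw [hh1]; exact one_mem _
  by_cases hne : g = h
  · rw [← hne]; exact self_mem_KK g
  have hhh := sq_of_comm h2 hg1 hg hh
  by_contra hnot
  have hginv : g⁻¹ = g := inv_eq_of_mul_eq_one_left hg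
  have hhinv : h⁻¹ = h := inv_eq_of_mul_eq_one_left hhh
  obtain ⟨k, hkg, hkh, hk⟩ := hS.bin.pw g h
  let N := KK X g ⊓ KK X h
  have hNinv : ∀ n ∈ N, n * n = 1 → n = 1 := by
    intro n hn hnn
    by_contra hn1
    have e1 := KK_eq hS hn1 hnn hg1 hg hn.1
    have e2 := KK_eq hS hn1 hnn hh1 hhh hn.2
    apply hnot
    rw [← e1, e2]
    exact self_mem_KK h
  have hnorC : ∀ x, x * g = g * x → ∀ n ∈ N, x * n * x⁻¹ ∈ N := by
    intro x hx n hn
    exact ⟨commute_normalizes hx hn.1, commute_normalizes (comm_of_comm hg1 (Or.inl h2) hx hh) hn.2⟩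
  have hN : ∀ n ∈ N, n = 1 := by
    intro n hn
    have hcomm : g * (n * g * n⁻¹) = (n * g * n⁻¹) * g := by
      by_contra hnc
      have ht1 : n * g * n⁻¹ ≠ 1 := fun e => hg1 (conj_eq_one_iff.1 e)
      have ht : (n * g * n⁻¹) * (n * g * n⁻¹) = 1 := by
        have : (n * g * n⁻¹) * (n * g * n⁻¹) = n * (g * g) * n⁻¹ := by group
        rw [this, hg]; group
      have h3 : nor N = ⊤ := gen_two h2 hg1 hg ht1 ht hnc _
        (fun x hx => mem_nor (hnorC x hx))
        (fun x hx => mem_nor fun m hm => by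
          have hx' : (n⁻¹ * x * n) * g = g * (n⁻¹ * x * n) := by
            have : x * (n * g * n⁻¹) * n = (n * g * n⁻¹) * x * n := by rw [hx]
            calc (n⁻¹ * x * n) * g = n⁻¹ * (x * (n * g * n⁻¹) * n) := by group
              _ = n⁻¹ * ((n * g * n⁻¹) * x * n) := by rw [this]
              _ = _ := by group
          have h4 := hnorC _ hx' (n⁻¹ * m * n) (N.mul_mem (N.mul_mem (N.inv_mem hn) hm) hn)
          have h5 := N.mul_mem (N.mul_mem hn h4) (N.inv_mem hn)
          have : n * (n⁻¹ * x * n * (n⁻¹ * m * n) * (n⁻¹ * x * n)⁻¹) * n⁻¹ = x * m * x⁻¹ := by group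
          rwa [this] at h5)
      have h4 := eq_bot_of_normal hS hg1 hg N inf_le_left _ h3 (fun g hg n hn => conj_mem_of_nor hg hn)
      have : n = 1 := by rwa [h4, Subgroup.mem_bot] at hn
      rw [this] at hnc
      apply hnc
      group
    have h6 : n * g * n⁻¹ * g⁻¹ ∈ N := by
      have := N.mul_mem hn (hnorC g rfl n⁻¹ (N.inv_mem hn))
      have e : n * (g * n⁻¹ * g⁻¹) = n * g * n⁻¹ * g⁻¹ := by group
      rwa [e] at this
    have h7 := hNinv _ h6 (by
      rw [hginv]
      calc n * g * n⁻¹ * g * (n * g * n⁻¹ * g) = (n * g * n⁻¹) * (g * (n * g * n⁻¹)) * g := by group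
        _ = (n * g * n⁻¹) * ((n * g * n⁻¹) * g) * g := by rw [hcomm]
        _ = n * (g * g) * n⁻¹ * (g * g) := by group
        _ = 1 := by rw [hg]; group)
    have h8 : n * g = g * n := by
      calc n * g = (n * g * n⁻¹ * g⁻¹) * (g * n) := by group
        _ = g * n := by rw [h7, one_mul]
    exact hNinv n hn (sq_of_comm h2 hg1 hg h8)
  have hk1 : k = 1 := hN k ⟨hkg, hkh⟩
  have hgh1 : g * h ≠ 1 := by
    intro e
    apply hne
    rw [← hhinv]
    exact eq_inv_of_mul_eq_one_left e
  have hghgh : (g * h) * (g * h) = 1 := by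
    calc (g * h) * (g * h) = g * (h * g) * h := by group
      _ = g * (g * h) * h := by rw [hh]
      _ = (g * g) * (h * h) := by group
      _ = 1 := by rw [hg, hhh, one_mul]
  have hgin : g ∈ KK X (g * h) := by
    intro x hx
    have h9 : g • x = h • x := by
      have h10 : g • ((g * h) • x) = g • x := by rw [hx]
      rw [smul_smul, ← mul_assoc, hg, one_mul] at h10
      exact h10.symm
    have := hk x h9
    rw [hk1, one_smul] at this
    exact this.symm
  have h11 := KK_eq hS hg1 hg hgh1 hghgh hgin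
  apply hnot
  rw [h11]
  have h12 : g * (g * h) ∈ KK X (g * h) := mul_mem hgin (self_mem_KK _)
  rwa [← mul_assoc, hg, one_mul] at h12

end two

end Cfsg.Agent.Lib.BinPslB
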