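import Mathlib
import Cfsg.Agent.Lib.BinPslB

/-!
# Binary actions of `PSL₂(q)`: point stabilizers in a Borel subgroup (helper14)
-/

set_option autoImplicit false
set_option linter.unusedSimpArgs false

namespace Cfsg.Agent.Lib.BinPslC

open Matrix Cfsg.Agent.Lib.SL2Basic Cfsg.Agent.Lib.SL2Tori Cfsg.Agent.Lib.ClSL2 Cfsg.Agent.Lib.BinAct
  Cfsg.Agent.Lib.BinPslA
open MulAction (stabilizer mem_stabilizer_iff)
open scoped MatrixGroups

universe u

variable {F : Type u} [Field F]

local notation "SL2" => Matrix.SpecialLinearGroup (Fin 2) F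
local notation "M2" => Matrix (Fin 2) (Fin 2) F
local notation "PSL2" => Matrix.ProjectiveSpecialLinearGroup (Fin 2) F

theorem uS00 (b : F) : ((uS b : SL2) : M2) 0 0 = 1 := by rw [coe_uS]; rfl
theorem uS01 (b : F) : ((uS b : SL2) : M2) 0 1 = b := by rw [coe_uS]; rfl
theorem uS10 (b : F) : ((uS b : SL2) : M2) 1 0 = 0 := by rw [coe_uS]; rfl
theorem uS11 (b : F) : ((uS b : SL2) : M2) 1 1 = 1 := by rw [coe_uS]; rfl
theorem lS00 (b : F) : ((lS b : SL2) : M2) 0 0 = 1 := by rw [coe_lS]; rfl
theorem lS01 (b : F) : ((lS b : SL2) : M2) 0 1 = 0 := by rw [coe_lS]; rfl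
theorem lS10 (b : F) : ((lS b : SL2) : M2) 1 0 = b := by rw [coe_lS]; rfl
theorem lS11 (b : F) : ((lS b : SL2) : M2) 1 1 = 1 := by rw [coe_lS]; rfl
theorem dg00 (c : Fˣ) : ((dg c : SL2) : M2) 0 0 = c := rfl
theorem dg01 (c : Fˣ) : ((dg c : SL2) : M2) 0 1 = 0 := rfl
theorem dg10 (c : Fˣ) : ((dg c : SL2) : M2) 1 0 = 0 := rfl
theorem dg11 (c : Fˣ) : ((dg c : SL2) : M2) 1 1 = ((c⁻¹ : Fˣ) : F) := rfl

/-- the Weyl element -/
def w0 : SL2 := ⟨!![0, -1; 1, 0], by simp [Matrix.det_fin_two]⟩

theorem w000 : ((w0 : SL2) : M2) 0 0 = 0 := rfl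
theorem w001 : ((w0 : SL2) : M2) 0 1 = -1 := rfl
theorem w010 : ((w0 : SL2) : M2) 1 0 = 1 := rfl
theorem w011 : ((w0 : SL2) : M2) 1 1 = 0 := rfl

theorem mul00 (A B : SL2) : ((A * B : SL2) : M2) 0 0 = (A : M2) 0 0 * (B : M2) 0 0 + (A : M2) 0 1 * (B : M2) 1 0 := by
  rw [Matrix.SpecialLinearGroup.coe_mul, Matrix.mul_apply, Fin.sum_univ_two]
theorem mul01 (A B : SL2) : ((A * B : SL2) : M2) 0 1 = (A : M2) 0 0 * (B : M2) 0 1 + (A : M2) 0 1 * (B : M2) 1 1 := by
  rw [Matrix.SpecialLinearGroup.coe_mul, Matrix.mul_apply, Fin.sum_univ_two]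
theorem mul10 (A B : SL2) : ((A * B : SL2) : M2) 1 0 = (A : M2) 1 0 * (B : M2) 0 0 + (A : M2) 1 1 * (B : M2) 1 0 := by
  rw [Matrix.SpecialLinearGroup.coe_mul, Matrix.mul_apply, Fin.sum_univ_two]
theorem mul11 (A B : SL2) : ((A * B : SL2) : M2) 1 1 = (A : M2) 1 0 * (B : M2) 0 1 + (A : M2) 1 1 * (B : M2) 1 1 := by
  rw [Matrix.SpecialLinearGroup.coe_mul, Matrix.mul_apply, Fin.sum_univ_two]
theorem inv00 (A : SL2) : ((A⁻¹ : SL2) : M2) 0 0 = (A : M2) 1 1 := by rw [inv_coe]; rfl
theorem inv01 (A : SL2) : ((A⁻¹ : SL2) : M2) 0 1 = -(A : M2) 0 1 := by rw [inv_coe]; rfl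
theorem inv10 (A : SL2) : ((A⁻¹ : SL2) : M2) 1 0 = -(A : M2) 1 0 := by rw [inv_coe]; rfl
theorem inv11 (A : SL2) : ((A⁻¹ : SL2) : M2) 1 1 = (A : M2) 0 0 := by rw [inv_coe]; rfl

section Bor

variable {X : Type*} [MulAction (Matrix.ProjectiveSpecialLinearGroup (Fin 2) F) X]

theorem smul_eq_smul_iff {x : X} {K L : SL2} : mk K • x = mk L • x ↔ mk (L⁻¹ * K) • x = x := by
  rw [mk_mul, mul_smul, mk_inv, inv_smul_eq_iff]

theorem smul_smul_iff {x : X} {K L M : SL2} : mk K • (mk L • x) = mk M • x ↔ mk (M⁻¹ * (K * L)) • x = x := by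
  rw [← mul_smul, ← mk_mul, smul_eq_smul_iff]

/-- triangular matrices -/
theorem tri {x : X} (hu : ∀ b : F, mk (uS b) • x = x) {a : Fˣ} (hd : mk (dg a) • x = x) {K : SL2}
    (h10 : (K : M2) 1 0 = 0) (h00 : (K : M2) 0 0 = a) : mk K • x = x := by
  have hdet := det2 K
  rw [h10, mul_zero, sub_zero, h00] at hdet
  have h11 : (K : M2) 1 1 = ((a⁻¹ : Fˣ) : F) := by
    rw [Units.val_inv_eq_inv_val]; exact eq_inv_of_mul_eq_one_right hdet
  have : K = dg a * uS ((a⁻¹ : Fˣ) * (K : M2) 0 1) := by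
    apply ext2
    · rw [mul00, dg00, dg01, uS00, h00]; ring
    · rw [mul01, dg00, dg01, uS01, uS11]; simp
    · rw [mul10, dg10, dg11, uS10, h10]; ring
    · rw [mul11, dg10, dg11, uS11, h11]; ring
  rw [this, mk_mul, mul_smul, hu, hd]

/-- full Borel-type point stabilizers in characteristic two -/
theorem not_bin_two (h2 : (2 : F) = 0) (hB : Bin (Matrix.ProjectiveSpecialLinearGroup (Fin 2) F) X) {x : X}
    (hu : ∀ b : F, mk (uS b) • x = x) (hup : ∀ K : SL2, mk K • x = x → (K : M2) 1 0 = 0) {a : Fˣ} (ha : a ≠ 1)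
    (hd : mk (dg a) • x = x) : False := by
  have ha0 : (a : F) ≠ 0 := a.ne_zero
  have ha1 : (a : F) ≠ 1 := fun h => ha (Units.ext h)
  have hneg : ∀ z : F, -z = z := fun z => by linear_combination (-z) * h2
  have hdi : mk (dg a⁻¹) • x = x := by
    have : dg (a⁻¹) = (dg a : SL2)⁻¹ := by
      rw [eq_inv_iff_mul_eq_one, ← dg_mul, inv_mul_cancel, dg_one]
    rw [this, mk_inv, inv_smul_eq_iff, hd]
  have hd1 : mk (dg (1 : Fˣ)) • x = x := by rw [dg_one, mk_one, one_smul]
  let V : SL2 := lS (1 + a)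
  let W : SL2 := ⟨!![(a : F), 0; 1 + a, (a : F)⁻¹], by simp [Matrix.det_fin_two]⟩
  have W00 : (W : M2) 0 0 = a := rfl
  have W01 : (W : M2) 0 1 = 0 := rfl
  have W10 : (W : M2) 1 0 = 1 + a := rfl
  have W11 : (W : M2) 1 1 = (a : F)⁻¹ := rfl
  let s : F := ((a : F) ^ 2 + 1) / a
  have hsa : s * a = (a : F) ^ 2 + 1 := by simp only [s]; field_simp
  let g : SL2 := ⟨!![1 + s, s; s, 1 + s], by
    rw [Matrix.det_fin_two]; simp; linear_combination s * h2⟩
  have g00 : (g : M2) 0 0 = 1 + s := rfl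
  have g01 : (g : M2) 0 1 = s := rfl
  have g10 : (g : M2) 1 0 = s := rfl
  have g11 : (g : M2) 1 1 = 1 + s := rfl
  obtain ⟨k, e1, e2, e3, e4⟩ := hB.quad (x1 := x) (x2 := mk w0 • x) (x3 := mk (lS (1 : F)) • x) (y3 := mk (lS (1 : F)) • x)
    (x4 := mk V • x) (y4 := mk W • x) ⟨1, one_smul _ _, one_smul _ _⟩ ⟨1, one_smul _ _, one_smul _ _⟩
    ⟨mk (uS 1), hu 1, by
      rw [smul_smul_iff]
      apply tri hu hd1
      · rw [mul10, mul00, mul10, inv10, inv11, W10, W00, uS00, uS01, uS10, uS11]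
        simp only [V, lS00, lS10]
        linear_combination (-1 - (a : F)) * h2
      · rw [mul00, mul00, mul10, inv00, inv01, W11, W01, uS00, uS01, uS10, uS11]
        simp only [V, lS00, lS10]
        field_simp
        rw [Units.val_one]
        linear_combination h2⟩
    ⟨1, one_smul _ _, one_smul _ _⟩
    ⟨mk (lS ((1 + (a : F)) ^ 2 / a)), by
      rw [smul_smul_iff]
      apply tri hu hd1
      · rw [mul10, mul00, mul10, inv10, inv11, w010, w000, lS00, lS01, lS10, lS11]
        ring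
      · rw [mul00, mul00, mul10, inv00, inv01, w001, w011, lS00, lS01, lS10, lS11, w000, w010, Units.val_one]
        ring, by
      rw [smul_smul_iff]
      apply tri hu hdi
      · rw [mul10, mul00, mul10, inv10, inv11, W10, W00]
        simp only [V, lS00, lS01, lS10, lS11]
        field_simp
        linear_combination (1 + (a : F)) * (a : F) * h2
      · rw [mul00, mul00, mul10, inv00, inv01, W01, W11]
        simp only [V, lS00, lS01, lS10, lS11]
        simp⟩
    ⟨mk g, by
      rw [smul_smul_iff]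
      apply tri hu hd1
      · simp only [mul10, mul00, inv10, inv11, lS00, lS10, g00, g01, g10, g11]
        ring
      · simp only [mul00, mul10, inv00, inv01, lS00, lS10, lS11, lS01, g00, g01, g10, g11]
        rw [Units.val_one]
        linear_combination s * h2, by
      rw [smul_smul_iff]
      apply tri hu hd
      · rw [mul10, mul00, mul10, inv10, inv11, W10, W00, g00, g01, g10, g11]
        simp only [V, lS00, lS10]
        linear_combination (-1 : F) * hsa + (-1 - s) * h2
      · rw [mul00, mul00, mul10, inv00, inv01, W01, W11, g00, g01, g10, g11]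
        simp only [V, lS00, lS10]
        rw [neg_zero, zero_mul, add_zero, inv_mul_eq_iff_eq_mul₀ ha0]
        linear_combination hsa + (1 + s) * h2⟩
  obtain ⟨K, rfl⟩ := mk_surj k
  have h10 := hup K e1
  have h01 : (K : M2) 0 1 = 0 := by
    rw [smul_smul_iff] at e2
    have := hup _ e2
    rw [mul10, mul00, mul10, inv10, inv11, w010, w000] at this
    linear_combination -this
  have hdet := det2 K
  rw [h10, mul_zero, sub_zero] at hdet
  have h3 : (K : M2) 0 0 = (K : M2) 1 1 := by
    rw [smul_smul_iff] at e3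
    have := hup _ e3
    rw [mul10, mul00, mul10, inv10, inv11, lS00, lS10, h10, h01] at this
    linear_combination -this
  have hK1 : K = 1 ∨ K = -1 := by
    rw [← mem_center_iff', mem_center_iff_entries]
    exact ⟨h01, h10, h3⟩
  rw [mk_eq_one.2 hK1, one_smul, smul_eq_smul_iff] at e4
  have := hup _ e4
  rw [mul10, inv10, inv11, W10, W00] at this
  simp only [V, lS00, lS10] at this
  have h5 : ((a : F) - 1) * (a - 1) = 0 := by linear_combination this + (1 - (a : F)) * h2
  have := mul_self_eq_zero.1 h5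
  exact ha1 (sub_eq_zero.1 this)

/-- full Borel-type point stabilizers in odd characteristic -/
theorem not_bin_full [Finite F] (h2 : (2 : F) ≠ 0) (hB : Bin (Matrix.ProjectiveSpecialLinearGroup (Fin 2) F) X) {x : X}
    (hu : ∀ b : F, mk (uS b) • x = x) (hup : ∀ K : SL2, mk K • x = x → (K : M2) 1 0 = 0) : False := by
  have hd1 : mk (dg (1 : Fˣ)) • x = x := by rw [dg_one, mk_one, one_smul]
  let C : Subgroup Fˣ :=
    { carrier := {a | mk (dg a) • x = x}
      one_mem' := hd1
      mul_mem' := fun {a b} ha hb => by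
        change mk (dg (a * b)) • x = x
        rw [dg_mul, mk_mul, mul_smul, hb, ha]
      inv_mem' := fun {a} ha => by
        change mk (dg a⁻¹) • x = x
        have : dg (a⁻¹) = (dg a : SL2)⁻¹ := by
          rw [eq_inv_iff_mul_eq_one, ← dg_mul, inv_mul_cancel, dg_one]
        rw [this, mk_inv, inv_smul_eq_iff]
        exact ha.symm }
  have hC : ∀ a, a ∈ C ↔ mk (dg a) • x = x := fun a => Iff.rfl
  have hm1 : (-1 : Fˣ) ∈ C := by
    rw [hC]
    have : dg (-1 : Fˣ) = (-1 : SL2) := by
      apply ext2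
      · rw [dg00]; simp
      · rw [dg01]; simp
      · rw [dg10]; simp
      · rw [dg11]; simp
    rw [this, mk_neg, mk_one, one_smul]
  obtain ⟨c, hc⟩ : ∃ c : C, ∀ d : C, d * d ≠ c := by
    by_contra hcon
    push Not at hcon
    have hs : Function.Surjective (fun d : C => d * d) := hcon
    have hi := Finite.injective_iff_surjective.2 hs
    have h1 := @hi ⟨-1, hm1⟩ 1 (by
      apply Subtype.ext
      simp)
    have h3 := congrArg (fun z : C => ((z : Fˣ) : F)) h1
    simp at h3
    apply h2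
    linear_combination -h3
  have hc0 : ((c : Fˣ) : F) ≠ 0 := (c : Fˣ).ne_zero
  have hdc : mk (dg (c : Fˣ)⁻¹) • x = x := C.inv_mem c.2
  let L : SL2 := ⟨!![((c : Fˣ) : F), 0; 1, ((c : Fˣ) : F)⁻¹], by simp [Matrix.det_fin_two]⟩
  have L00 : (L : M2) 0 0 = (c : Fˣ) := rfl
  have L01 : (L : M2) 0 1 = 0 := rfl
  have L10 : (L : M2) 1 0 = 1 := rfl
  have L11 : (L : M2) 1 1 = ((c : Fˣ) : F)⁻¹ := rfl
  obtain ⟨k, e1, e2, e3⟩ := hB.three (x1 := x) (x2 := mk w0 • x) (x3 := mk (lS (1 : F)) • x) (y3 := mk L • x)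
    ⟨1, one_smul _ _, one_smul _ _⟩
    ⟨mk (uS (((c : Fˣ) : F) - 1)), hu _, by
      rw [smul_smul_iff]
      apply tri hu hd1
      · simp only [mul10, mul00, inv10, inv11, L10, L00, uS00, uS01, uS10, uS11, lS00, lS10]
        ring
      · simp only [mul00, mul10, inv00, inv01, L11, L01, uS00, uS01, uS10, uS11, lS00, lS10]
        rw [Units.val_one]
        field_simp
        ring⟩
    ⟨mk (lS (((c : Fˣ) : F)⁻¹ - 1)), by
      rw [smul_smul_iff]
      apply tri hu hd1
      · simp only [mul10, mul00, inv10, inv11, w010, w000, lS00, lS01, lS10, lS11]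
        ring
      · simp only [mul00, mul10, inv00, inv01, w001, w011, lS00, lS01, lS10, lS11, w000, w010]
        rw [Units.val_one]
        ring, by
      rw [smul_smul_iff]
      apply tri hu hdc
      · simp only [mul10, mul00, inv10, inv11, L10, L00, lS00, lS01, lS10, lS11]
        field_simp
        ring
      · simp only [mul00, mul10, inv00, inv01, L11, L01, lS00, lS01, lS10, lS11]
        simp⟩
  obtain ⟨K, rfl⟩ := mk_surj k
  have h10 := hup K e1
  have h01 : (K : M2) 0 1 = 0 := by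
    rw [smul_smul_iff] at e2
    have := hup _ e2
    simp only [mul10, mul00, inv10, inv11, w010, w000] at this
    linear_combination -this
  obtain ⟨α, hα⟩ := mem_range_dgHom.2 ⟨h01, h10⟩
  rw [dgHom_apply] at hα
  subst hα
  have h3 : ((c : Fˣ) : F) = α * α := by
    rw [smul_smul_iff] at e3
    have := hup _ e3
    simp only [mul10, mul00, inv10, inv11, lS00, lS10, L10, L00, dg00, dg10, dg11, dg01] at this
    have hα0 : (α : F) ≠ 0 := α.ne_zero
    rw [Units.val_inv_eq_inv_val] at this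
    field_simp at this
    linear_combination this
  apply hc ⟨α, e1⟩
  apply Subtype.ext
  apply Units.ext
  exact h3.symm

/-- Borel-type point stabilizers containing some but not all of the unipotent elements -/
theorem not_bin_part (h2 : (2 : F) ≠ 0) (hB : Bin (Matrix.ProjectiveSpecialLinearGroup (Fin 2) F) X) {x : X}
    (hup : ∀ K : SL2, mk K • x = x → (K : M2) 1 0 = 0) {a : F} (ha : a ≠ 0) (hua : mk (uS a) • x = x) {z : F}
    (hz : ∀ K : SL2, mk K • x = x → (K : M2) 0 0 * z + (K : M2) 0 1 = (K : M2) 1 1 * z → mk K = 1) : False := by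
  have huan : mk (uS (-a)) • x = x := by
    rw [← uS_inv, mk_inv, inv_smul_eq_iff, hua]
  let s : F := a / 2 - z
  let Q : SL2 := ⟨!![1, -(a / 2); 2 / a, 0], by simp [Matrix.det_fin_two]; field_simp⟩
  have Q00 : (Q : M2) 0 0 = 1 := rfl
  have Q01 : (Q : M2) 0 1 = -(a / 2) := rfl
  have Q10 : (Q : M2) 1 0 = 2 / a := rfl
  have Q11 : (Q : M2) 1 1 = 0 := rfl
  let R : SL2 := ⟨!![0, -(a / 2); 2 / a, 0], by simp [Matrix.det_fin_two]; field_simp⟩
  have R00 : (R : M2) 0 0 = 0 := rfl
  have R01 : (R : M2) 0 1 = -(a / 2) := rfl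
  have R10 : (R : M2) 1 0 = 2 / a := rfl
  have R11 : (R : M2) 1 1 = 0 := rfl
  obtain ⟨k, e1, e2, e3⟩ := hB.trip (x1 := mk (uS s) • x) (x2 := mk Q • x) (x3 := mk R • x)
    (h1 := mk (uS a)) (h2 := mk (uS a * lS (-(4 / a)))) (h3 := mk (lS (4 / a)))
    (by
      rw [← mul_smul, ← mk_mul, uS_mul, add_comm, ← uS_mul, mk_mul, mul_smul, hua])
    (by
      rw [smul_smul_iff]
      have : Q⁻¹ * (uS a * lS (-(4 / a)) * Q) = -uS (-a) := by
        rw [inv_mul_eq_iff_eq_mul]
        apply ext2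
        · rw [mul_neg, Matrix.SpecialLinearGroup.coe_neg, Matrix.neg_apply]
          simp only [mul00, mul01, mul10, mul11, uS00, uS01, uS10, uS11, lS00, lS01, lS10, lS11, Q00, Q01, Q10, Q11]
          field_simp
          ring
        · rw [mul_neg, Matrix.SpecialLinearGroup.coe_neg, Matrix.neg_apply]
          simp only [mul00, mul01, mul10, mul11, uS00, uS01, uS10, uS11, lS00, lS01, lS10, lS11, Q00, Q01, Q10, Q11]
          field_simp
          ring
        · rw [mul_neg, Matrix.SpecialLinearGroup.coe_neg, Matrix.neg_apply]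
          simp only [mul00, mul01, mul10, mul11, uS00, uS01, uS10, uS11, lS00, lS01, lS10, lS11, Q00, Q01, Q10, Q11]
          field_simp
          ring
        · rw [mul_neg, Matrix.SpecialLinearGroup.coe_neg, Matrix.neg_apply]
          simp only [mul00, mul01, mul10, mul11, uS00, uS01, uS10, uS11, lS00, lS01, lS10, lS11, Q00, Q01, Q10, Q11]
          field_simp
          ring
      rw [this, mk_neg, huan])
    (by
      rw [smul_smul_iff]
      have : R⁻¹ * (lS (4 / a) * R) = uS (-a) := by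
        rw [inv_mul_eq_iff_eq_mul]
        apply ext2
        · simp only [mul00, mul01, mul10, mul11, uS00, uS01, uS10, uS11, lS00, lS01, lS10, lS11, R00, R01, R10, R11]
          ring
        · simp only [mul00, mul01, mul10, mul11, uS00, uS01, uS10, uS11, lS00, lS01, lS10, lS11, R00, R01, R10, R11]
          ring
        · simp only [mul00, mul01, mul10, mul11, uS00, uS01, uS10, uS11, lS00, lS01, lS10, lS11, R00, R01, R10, R11]
          ring
        · simp only [mul00, mul01, mul10, mul11, uS00, uS01, uS10, uS11, lS00, lS01, lS10, lS11, R00, R01, R10, R11]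
          field_simp
          ring
      rw [this, huan])
    (by
      rw [← mk_mul, mul_assoc]
      have : (lS (-(4 / a)) * lS (4 / a) : SL2) = 1 := by
        apply ext2
        · simp only [mul00, lS00, lS01, lS10, lS11]; simp
        · simp only [mul01, lS00, lS01, lS10, lS11]; simp
        · simp only [mul10, lS00, lS01, lS10, lS11]; simp
        · simp only [mul11, lS00, lS01, lS10, lS11]; simp
      rw [this, mul_one])
  obtain ⟨K, rfl⟩ := mk_surj k
  rw [smul_smul_iff] at e1 e2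
  have f1 := hup _ e1
  simp only [mul10, mul00, inv10, inv11, uS00, uS10] at f1
  have f1' : (K : M2) 1 0 = 0 := by linear_combination f1
  have f2 := hup _ e2
  simp only [mul10, mul00, inv10, inv11, Q00, Q10, f1'] at f2
  have f2' : (K : M2) 0 0 * (a / 2) + (K : M2) 0 1 = (K : M2) 1 1 * (a / 2) := by
    field_simp at f2 ⊢
    apply mul_left_cancel₀ h2
    linear_combination -f2
  have f3 := hz _ e1 (by
    simp only [mul00, mul01, mul10, mul11, inv00, inv01, inv10, inv11, uS00, uS01, uS10, uS11, f1', s]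
    linear_combination f2')
  have f4 : mk K = 1 := by
    rw [mk_mul, mk_mul, mk_inv] at f3
    calc mk K = mk (uS s) * ((mk (uS s))⁻¹ * (mk K * mk (uS s))) * (mk (uS s))⁻¹ := by group
      _ = 1 := by rw [f3]; group
  rw [f4, one_smul] at e3
  have e3' := e3.symm
  rw [smul_smul_iff] at e3'
  have f5 := hup _ e3'
  simp only [mul10, mul00, inv10, inv11, uS00, uS01, uS10, uS11, R00, R10] at f5
  have h4 : (2 : F) * 2 ≠ 0 := mul_ne_zero h2 h2
  field_simp at f5
  apply h4
  linear_combination -f5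

theorem exists_z [Finite F] {x : X}
    (hup : ∀ K : SL2, mk K • x = x → (K : M2) 1 0 = 0) {b0 : F} (hb0 : mk (uS b0) • x ≠ x) :
    ∃ z : F, ∀ K : SL2, mk K • x = x → (K : M2) 0 0 * z + (K : M2) 0 1 = (K : M2) 1 1 * z → mk K = 1 := by
  have hsc : ∀ K : SL2, (K : M2) 1 0 = 0 → (K : M2) 0 1 = 0 → (K : M2) 0 0 ^ 2 = 1 → mk K = 1 := by
    intro K h10 h01 h00
    rw [mk_eq_one, ← mem_center_iff', mem_center_iff_entries]
    refine ⟨h01, h10, ?_⟩
    have hd := det2 K
    rw [h10, mul_zero, sub_zero] at hd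
    have h0 : (K : M2) 0 0 ≠ 0 := left_ne_zero_of_mul_eq_one hd
    apply mul_left_cancel₀ h0
    rw [hd, ← pow_two, h00]
  by_cases hcase : ∀ K : SL2, mk K • x = x → (K : M2) 0 0 ^ 2 = 1
  · refine ⟨0, fun K hK h => hsc K (hup K hK) ?_ (hcase K hK)⟩
    linear_combination h
  · push Not at hcase
    obtain ⟨K0, hK0, hne⟩ := hcase
    let W : AddSubgroup F :=
      { carrier := {b | mk (uS b) • x = x}
        zero_mem' := by change mk (uS 0) • x = x; rw [BinPslA.uS_zero, mk_one, one_smul]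
        add_mem' := fun {a b} ha hb => by
          change mk (uS (a + b)) • x = x
          rw [← uS_mul, mk_mul, mul_smul, hb, ha]
        neg_mem' := fun {a} ha => by
          change mk (uS (-a)) • x = x
          rw [← uS_inv, mk_inv, inv_smul_eq_iff]
          exact ha.symm }
    have hW : ∀ b, b ∈ W ↔ mk (uS b) • x = x := fun b => Iff.rfl
    have hdet : ∀ K : SL2, mk K • x = x → (K : M2) 0 0 * (K : M2) 1 1 = 1 := by
      intro K hK
      have hd := det2 K
      rwa [hup K hK, mul_zero, sub_zero] at hd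
    have hstab : ∀ K : SL2, mk K • x = x → ∀ b ∈ W, (K : M2) 0 0 ^ 2 * b ∈ W := by
      intro K hK b hb
      rw [hW] at hb ⊢
      have h10 := hup K hK
      have hd := hdet K hK
      have e : K * uS b = uS ((K : M2) 0 0 ^ 2 * b) * K := by
        apply ext2
        · simp only [mul00, uS00, uS01, uS10, uS11, h10]; ring
        · simp only [mul01, uS00, uS01, uS10, uS11]
          linear_combination (-(K : M2) 0 0 * b) * hd
        · simp only [mul10, uS00, uS01, uS10, uS11, h10]; ring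
        · simp only [mul11, uS00, uS01, uS10, uS11, h10]; ring
      have e2 : mk (uS ((K : M2) 0 0 ^ 2 * b)) • (mk K • x) = mk K • (mk (uS b) • x) := by
        rw [← mul_smul, ← mk_mul, ← e, mk_mul, mul_smul]
      rw [hK, hb, hK] at e2
      exact e2
    have hdiv : ∀ K : SL2, mk K • x = x → (K : M2) 0 0 ^ 2 ≠ 1 → ∀ v, (1 - (K : M2) 0 0 ^ 2) * v ∈ W → v ∈ W := by
      intro K hK hne v hv
      have hne' : (1 - (K : M2) 0 0 ^ 2) ≠ 0 := fun h => hne (sub_eq_zero.1 h).symm
      let f : W → W := fun w => ⟨(1 - (K : M2) 0 0 ^ 2) * w, by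
        rw [sub_mul, one_mul]
        exact W.sub_mem w.2 (hstab K hK _ w.2)⟩
      have hf : Function.Injective f := by
        intro a b hab
        have := congrArg Subtype.val hab
        exact Subtype.ext (mul_left_cancel₀ hne' this)
      obtain ⟨w, hw⟩ := Finite.injective_iff_surjective.1 hf ⟨_, hv⟩
      have : (w : F) = v := mul_left_cancel₀ hne' (congrArg Subtype.val hw)
      rw [← this]; exact w.2
    have hd0 := hdet K0 hK0
    have h00 : (K0 : M2) 0 0 ≠ 0 := left_ne_zero_of_mul_eq_one hd0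
    have hsub : (K0 : M2) 1 1 - (K0 : M2) 0 0 ≠ 0 := by
      intro h
      apply hne
      rw [pow_two]
      nth_rw 2 [← sub_eq_zero.1 h]
      exact hd0
    let z1 : F := (K0 : M2) 0 1 / ((K0 : M2) 1 1 - (K0 : M2) 0 0)
    have hz1 : z1 * ((K0 : M2) 1 1 - (K0 : M2) 0 0) = (K0 : M2) 0 1 := by
      simp only [z1]; field_simp
    refine ⟨z1 + b0, fun K hK hfix => ?_⟩
    by_cases h1 : (K : M2) 0 0 ^ 2 = 1
    · refine hsc K (hup K hK) ?_ h1
      have hd := hdet K hK
      have h00' : (K : M2) 0 0 ≠ 0 := left_ne_zero_of_mul_eq_one hd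
      have : (K : M2) 0 0 = (K : M2) 1 1 := by
        apply mul_left_cancel₀ h00'
        rw [hd, ← pow_two, h1]
      rw [this] at hfix
      linear_combination hfix
    · exfalso
      apply hb0
      rw [← hW]
      have hd := hdet K hK
      -- the commutator
      have hcom : mk (K0 * K * K0⁻¹ * K⁻¹) • x = x := by
        rw [mk_mul, mk_mul, mk_mul, mk_inv, mk_inv, mul_smul, mul_smul, mul_smul,
          inv_smul_eq_iff.2 hK.symm, inv_smul_eq_iff.2 hK0.symm, hK, hK0]
      have h10 := hup K hK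
      have h010 := hup K0 hK0
      have hcom2 : K0 * K * K0⁻¹ * K⁻¹ = uS ((1 - (K : M2) 0 0 ^ 2) * (((K0 : M2) 0 0 ^ 2 - 1) * b0)) := by
        rw [mul_inv_eq_iff_eq_mul, mul_inv_eq_iff_eq_mul]
        apply ext2
        · simp only [mul00, mul01, mul10, mul11, uS00, uS01, uS10, uS11, h10, h010]; ring
        · simp only [mul00, mul01, mul10, mul11, uS00, uS01, uS10, uS11, h10, h010]
          linear_combination ((K0 : M2) 0 0 - (K0 : M2) 1 1) * hfix - ((K : M2) 1 1 - (K : M2) 0 0) * hz1 +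
            (b0 * (K : M2) 0 0 * ((K0 : M2) 0 0 ^ 2 - 1) * (K0 : M2) 1 1) * hd -
            (b0 * ((K : M2) 1 1 - (K : M2) 0 0) * (K0 : M2) 0 0) * hd0
        · simp only [mul00, mul01, mul10, mul11, uS00, uS01, uS10, uS11, h10, h010]; ring
        · simp only [mul00, mul01, mul10, mul11, uS00, uS01, uS10, uS11, h10, h010]; ring
      rw [hcom2, ← hW] at hcom
      have h5 := hdiv K hK h1 _ hcom
      have h6 := hdiv K0 hK0 hne (-b0) (by
        have : (1 - (K0 : M2) 0 0 ^ 2) * -b0 = ((K0 : M2) 0 0 ^ 2 - 1) * b0 := by ring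
        rw [this]; exact h5)
      have := W.neg_mem h6
      rwa [neg_neg] at this

end Bor

end Cfsg.Agent.Lib.BinPslC
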