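import Mathlib
import Cfsg.Agent.Lib.BinPslC

/-!
# Binary actions of `PSL₂(q)`: cyclic point stabilizers of odd order (helper14)
-/

set_option autoImplicit false

namespace Cfsg.Agent.Lib.BinPslD

open Matrix Polynomial Cfsg.Agent.Lib.SL2Basic Cfsg.Agent.Lib.SL2Tori Cfsg.Agent.Lib.ClSL2 Cfsg.Agent.Lib.BinAct
  Cfsg.Agent.Lib.BinPslA Cfsg.Agent.Lib.BinPslC
open MulAction (stabilizer mem_stabilizer_iff)
open scoped MatrixGroups

universe u

variable {F : Type u} [Field F]

local notation "SL2" => Matrix.SpecialLinearGroup (Fin 2) F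
local notation "M2" => Matrix (Fin 2) (Fin 2) F
local notation "PSL2" => Matrix.ProjectiveSpecialLinearGroup (Fin 2) F

/-- non-commuting triples of conjugates -/
def Trip (A : SL2) : Prop :=
  ∃ Y W : SL2, (∃ P : PSL2, P * mk A * P⁻¹ = mk Y) ∧ (∃ P : PSL2, P * mk A * P⁻¹ = mk W) ∧
    (∃ P : PSL2, P * mk A * P⁻¹ = mk (Y * W)) ∧ mk Y * mk W ≠ mk W * mk Y

theorem conj_of_tr [Finite F] {A B : SL2} (h4 : tr A ^ 2 ≠ 4) (h : tr B = tr A ∨ tr B = -tr A) :
    ∃ P : PSL2, P * mk A * P⁻¹ = mk B := by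
  rcases h with h | h
  · obtain ⟨g, hg⟩ := exists_sl_conj_of_tr h.symm h4
    exact ⟨mk g, by rw [← mk_inv, ← mk_mul, ← mk_mul, hg]⟩
  · obtain ⟨g, hg⟩ := exists_sl_conj_of_tr (A := A) (B := -B) (by rw [tr_neg, h, neg_neg]) h4
    exact ⟨mk g, by rw [← mk_inv, ← mk_mul, ← mk_mul, hg, mk_neg]⟩

theorem tr_sq (A : SL2) : tr (A * A) = tr A ^ 2 - 2 := by
  have h := sq_eq A
  have h0 := det2 A
  have h1 := congrFun (congrFun h 0) 0
  have h2 := congrFun (congrFun h 1) 1
  simp only [Matrix.sub_apply, Matrix.smul_apply, Matrix.one_apply_eq, smul_eq_mul] at h1 h2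
  rw [tr_def, Matrix.SpecialLinearGroup.coe_mul, h1, h2]
  rw [tr_def]
  ring

/-- `Y` and `Y⁻¹ A` do not commute if the traces are right -/
theorem noncomm {A Y : SL2} (h4 : tr A ^ 2 ≠ 4) (h0 : (2 : F) = 0 ∨ tr A ≠ 0) (hY : tr Y = tr A)
    (hne2 : tr (Y⁻¹ * A) ≠ 2) (hne : tr (Y⁻¹ * A) ≠ tr A ^ 2 - 2) : mk Y * mk (Y⁻¹ * A) ≠ mk (Y⁻¹ * A) * mk Y := by
  intro h
  have h1 : Y * A = A * Y := by
    rw [← mk_mul, ← mk_mul, mul_inv_cancel_left, mk_eq] at h
    rcases h with h | h
    · calc Y * A = Y * (Y⁻¹ * A * Y) := by rw [← h]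
        _ = A * Y := by group
    · rcases h0 with h0 | h0
      · rw [neg_eq_self h0] at h
        calc Y * A = Y * (Y⁻¹ * A * Y) := by rw [← h]
          _ = A * Y := by group
      · by_cases h2 : (2 : F) = 0
        · rw [neg_eq_self h2] at h
          calc Y * A = Y * (Y⁻¹ * A * Y) := by rw [← h]
            _ = A * Y := by group
        · exfalso
          have e := congrArg tr h
          have e2 : tr (Y⁻¹ * A * Y) = tr A := by
            have := tr_conj A Y⁻¹
            rwa [inv_inv] at this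
          rw [tr_neg, e2] at e
          have : (2 : F) * tr A = 0 := by linear_combination e
          rcases mul_eq_zero.1 this with h5 | h5
          · exact h2 h5
          · exact h0 h5
  rcases eq_or_eq_inv_of_mem_centralizer h4 (B := Y)
    (by rw [Subgroup.mem_centralizer_singleton_iff, h1]) hY with e | e
  · apply hne2
    rw [e, inv_mul_cancel, tr_one]
  · apply hne
    rw [e, inv_inv, tr_sq]

theorem trip_odd [Fintype F] (h2 : (2 : F) ≠ 0) (hcard : Fintype.card F % 2 = 1) {A : SL2} (h4 : tr A ^ 2 ≠ 4)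
    (h0 : tr A ≠ 0) : Trip A := by
  set t := tr A with ht
  have hA := not_mem_center_of_tr h4
  obtain ⟨t', ht', ht1, ht2⟩ : ∃ t' : F, (t' = t ∨ t' = -t) ∧ t' ≠ 2 ∧ t' ≠ t ^ 2 - 2 := by
    by_cases h1 : t = -1
    · refine ⟨-t, Or.inr rfl, ?_, ?_⟩
      · rw [h1]
        intro h
        have : (1 : F) = 0 := by linear_combination -h
        exact one_ne_zero this
      · rw [h1]
        intro h
        apply h2
        linear_combination h
    · refine ⟨t, Or.inl rfl, ?_, ?_⟩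
      · intro h
        apply h4
        rw [h]; norm_num
      · intro h
        have : (t - 2) * (t + 1) = 0 := by linear_combination -h
        rcases mul_eq_zero.1 this with h5 | h5
        · apply h4
          rw [sub_eq_zero.1 h5]; norm_num
        · exact h1 (eq_neg_of_add_eq_zero_left h5)
  have h40 : (4 : F) ≠ 0 := by
    have : (4 : F) = 2 * 2 := by norm_num
    rw [this]; exact mul_ne_zero h2 h2
  have hδ : (1 - t ^ 2 / 4 : F) ≠ 0 := by
    intro h
    apply h4
    field_simp at h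
    linear_combination -h
  have hf2 : (X ^ 2 - C t * X + 1 : F[X]).degree = 2 := by compute_degree!
  have hg2 : (C (1 - t ^ 2 / 4) * X ^ 2 + C (t' - t * t / 2) * X : F[X]).degree = 2 := by
    compute_degree!
  obtain ⟨s, y, hsy⟩ := FiniteField.exists_root_sum_quadratic hf2 hg2 hcard
  simp only [eval_add, eval_sub, eval_pow, eval_mul, eval_C, eval_X, eval_one] at hsy
  obtain ⟨Y, hY1, hY2⟩ := exists_tr_tr hA (t := t) (t' := t') (v := s + t * y / 2) (y := y) (by
    rw [← ht, ← hsy]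
    field_simp
    ring)
  refine ⟨Y, Y⁻¹ * A, conj_of_tr h4 (Or.inl (by rw [hY1])), conj_of_tr h4 (by rw [hY2]; exact ht'),
    ⟨1, ?_⟩, noncomm h4 (Or.inr h0) (by rw [hY1]) (by rw [hY2]; exact ht1) (by rw [hY2]; exact ht2)⟩
  rw [mul_inv_cancel_left]; simp

theorem trip_two [Fintype F] (h2 : (2 : F) = 0) {A : SL2} (h0 : tr A ≠ 0) (h1 : tr A ≠ 1) : Trip A := by
  have h4 : tr A ^ 2 ≠ 4 := by
    intro h
    apply h0
    have : tr A ^ 2 = 0 := by linear_combination h + 2 * h2
    exact pow_eq_zero_iff two_ne_zero |>.1 this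
  have hA := not_mem_center_of_tr h4
  have hch : ringChar F = 2 := by
    have : CharP F 2 := CharTwo.of_one_ne_zero_of_two_eq_zero one_ne_zero h2
    exact ringChar.eq F 2 ▸ rfl
  obtain ⟨r, hr⟩ := FiniteField.isSquare_of_char_two hch (tr A)⁻¹
  have hr' : tr A * (r * r) = 1 := by rw [← hr]; exact mul_inv_cancel₀ h0
  obtain ⟨Y, hY1, hY2⟩ := exists_tr_tr hA (t := tr A) (t' := tr A) (v := r) (y := r) (by
    linear_combination (-1 : F) * hr' + (r * r) * h2)
  refine ⟨Y, Y⁻¹ * A, conj_of_tr h4 (Or.inl (by rw [hY1])), conj_of_tr h4 (Or.inl hY2), ⟨1, ?_⟩,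
    noncomm h4 (Or.inl h2) hY1 (by rw [hY2, h2]; exact h0) ?_⟩
  · rw [mul_inv_cancel_left]; simp
  · rw [hY2, h2, sub_zero]
    intro h
    apply h1
    have : tr A * (1 - tr A) = 0 := by linear_combination h
    exact (sub_eq_zero.1 ((mul_eq_zero.1 this).resolve_left h0)).symm

theorem trip_three [Fintype F] (h2 : (2 : F) = 0) {A : SL2} (h1 : tr A = 1) {c : F} (hc : c ^ 2 + c + 1 = 0) : Trip A := by
  have hc0 : c ≠ 0 := by rintro rfl; simp at hc
  have h4 : tr A ^ 2 ≠ 4 := by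
    rw [h1]
    intro h
    have : (1 : F) = 0 := by linear_combination h + 2 * h2
    exact one_ne_zero this
  have hcinv : c⁻¹ = c + 1 := by
    rw [inv_eq_iff_eq_inv, eq_comm, inv_eq_of_mul_eq_one_left]
    linear_combination hc - h2
  have hu : (((Units.mk0 c hc0)⁻¹ : Fˣ) : F) = c + 1 := by
    rw [Units.val_inv_eq_inv_val, Units.val_mk0, hcinv]
  let D : SL2 := dg (Units.mk0 c hc0)
  have D00 : (D : M2) 0 0 = c := rfl
  have D01 : (D : M2) 0 1 = 0 := rfl
  have D10 : (D : M2) 1 0 = 0 := rfl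
  have D11 : (D : M2) 1 1 = c + 1 := hu
  have hDB : (D * uS 1 : SL2) = D * uS 1 := rfl
  refine ⟨D, D * uS 1, conj_of_tr h4 (Or.inl ?_), conj_of_tr h4 (Or.inl ?_), conj_of_tr h4 (Or.inl ?_), ?_⟩
  · rw [h1, tr_def, D00, D11]
    linear_combination c * h2
  · rw [h1, tr_def, mul00, mul11, uS00, uS10, uS01, uS11, D00, D01, D10, D11]
    linear_combination c * h2
  · rw [h1, tr_def, mul00, mul11, mul00, mul10, mul01, mul11, uS00, uS10, uS01, uS11, D00, D01, D10, D11]
    linear_combination 2 * hc - h2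
  · rw [Ne, mk_comm]
    have hne : ((D * (D * uS 1) : SL2) : M2) 0 1 ≠ ((D * uS 1 * D : SL2) : M2) 0 1 := by
      simp only [mul01, mul11, mul00, uS01, uS11, uS00, uS10, D00, D01, D10, D11]
      intro h
      have : c = 0 := by linear_combination -h
      exact hc0 this
    rintro (h | h)
    · exact hne (by rw [h])
    · rw [neg_eq_self h2] at h
      exact hne (by rw [h])

/-- The criterion for abelian point stabilizers. -/
theorem not_bin_of_trip {X : Type*} [MulAction (Matrix.ProjectiveSpecialLinearGroup (Fin 2) F) X] {x : X}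
    (hs : ∀ a b : PSL2, a • x = x → b • x = x → a * b = b * a)
    (hc : ∀ a : PSL2, a • x = x → a ≠ 1 → (2 : F) = 0 ∨ a * a ≠ 1) {A : SL2} (hA : mk A • x = x) (hT : Trip A) :
    ¬ Bin (Matrix.ProjectiveSpecialLinearGroup (Fin 2) F) X := by
  intro hB
  obtain ⟨Y, W, ⟨P, hP⟩, ⟨Q, hQ⟩, ⟨R, hR⟩, hne⟩ := hT
  have hfix : ∀ (P g : PSL2), g • (P • x) = P • x ↔ (P⁻¹ * g * P) • x = x := by
    intro P g
    rw [mul_smul, mul_smul, inv_smul_eq_iff]
  have hs' : ∀ (P a b : PSL2), a • (P • x) = P • x → b • (P • x) = P • x → a * b = b * a := by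
    intro P a b ha hb
    have := hs _ _ ((hfix P a).1 ha) ((hfix P b).1 hb)
    calc a * b = P * ((P⁻¹ * a * P) * (P⁻¹ * b * P)) * P⁻¹ := by group
      _ = P * ((P⁻¹ * b * P) * (P⁻¹ * a * P)) * P⁻¹ := by rw [this]
      _ = b * a := by group
  have hc' : ∀ (P a : PSL2), a • (P • x) = P • x → a ≠ 1 → (2 : F) = 0 ∨ a * a ≠ 1 := by
    intro P a ha ha1
    rcases hc _ ((hfix P a).1 ha) (fun h => ha1 (by
      calc a = P * (P⁻¹ * a * P) * P⁻¹ := by group
        _ = 1 := by rw [h]; group)) with h | h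
    · exact Or.inl h
    · refine Or.inr fun h' => h ?_
      calc P⁻¹ * a * P * (P⁻¹ * a * P) = P⁻¹ * (a * a) * P := by group
        _ = 1 := by rw [h']; group
  have key : ∀ (P : PSL2) (B : SL2), P * mk A * P⁻¹ = mk B → mk B • (P • x) = P • x := by
    intro P B h
    rw [← h, hfix]
    have : P⁻¹ * (P * mk A * P⁻¹) * P = mk A := by group
    rw [this, hA]
  have y1 := key R _ hR
  have y2 := key P _ hP
  have y3 := key Q _ hQ
  obtain ⟨k, e1, e2, e3⟩ := hB.trip y1 y2 y3 (mk_mul Y W)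
  by_cases hk : k = 1
  · rw [hk, one_smul] at e3
    have h1 := hs' Q _ _ e3.symm y3
    apply hne
    rw [mk_mul] at h1
    have h5 : mk Y * mk W * mk W = mk W * mk Y * mk W := by rw [h1]; group
    exact mul_right_cancel h5
  · have h1 := hs' R _ _ e1 y1
    have h3 := hs' P _ _ e2 y2
    have h5 := comm_of_comm hk (hc' R k e1 hk) h1.symm h3.symm
    apply hne
    rw [mk_mul, mul_assoc] at h5
    exact (mul_left_cancel h5).symm

end Cfsg.Agent.Lib.BinPslD
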