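import Cfsg.Agent.S4635
import Cfsg.Agent.S0920
import Cfsg.Agent.Lib.BlockDefZero
import Cfsg.Agent.Lib.BlockDefect
import Cfsg.Agent.Lib.CharDegrees
import Cfsg.Agent.Lib.BlockDeg
import Cfsg.Agent.Lib.H76Char

/-!
# McKay's count for a prime dividing the group order exactly once
-/

set_option autoImplicit false
set_option linter.all false

namespace Cfsg.Agent.Lib.Bk4502

open Cfsg Cfsg.Agent.Lib.BlockRing Cfsg.Agent.Lib.BlockGA Cfsg.Agent.Lib.BlockDefect
  Cfsg.Agent.Lib.BlockIdem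

universe u

variable {G : Type u} [Group G] [Finite G] {p : ℕ} {M : Ideal AlgInt}

theorem sylow_conj [Fact p.Prime] {P D : Subgroup G} (hsq : ¬ p ^ 2 ∣ Nat.card G)
    (hP : Nat.card P = p) (hD : Nat.card D = p) :
    ∃ x : G, P = D.map (MulAut.conj x).toMonoidHom := by
  have hp : p.Prime := Fact.out
  have key : ∀ Q : Subgroup G, Nat.card Q = p → ∃ S : Sylow p G, (S : Subgroup G) = Q := by
    intro Q hQ
    have hQp : IsPGroup p Q := IsPGroup.of_card (n := 1) (by rw [hQ, pow_one])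
    obtain ⟨S, hS⟩ := hQp.exists_le_sylow
    refine ⟨S, (Subgroup.eq_of_le_of_card_ge hS ?_).symm⟩
    obtain ⟨n, hn⟩ := IsPGroup.iff_card.1 S.isPGroup'
    have hn' : Nat.card (S : Subgroup G) = p ^ n := hn
    rw [hn', hQ]
    have h1 : n < 2 := by
      by_contra h2
      apply hsq
      have h3 : p ^ 2 ∣ p ^ n := pow_dvd_pow p (by omega)
      rw [← hn'] at h3
      exact h3.trans (Subgroup.card_subgroup_dvd_card _)
    calc p ^ n ≤ p ^ 1 := Nat.pow_le_pow_right hp.pos (by omega)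
      _ = p := pow_one p
  obtain ⟨S, rfl⟩ := key P hP
  obtain ⟨T, rfl⟩ := key D hD
  obtain ⟨x, hx⟩ := MulAction.exists_smul_eq G T S
  refine ⟨x, ?_⟩
  rw [← hx]
  rfl

theorem not_dvd_iff (hM : IsPModular p M) (hdiv : p ∣ Nat.card G) (hsq : ¬ p ^ 2 ∣ Nat.card G)
    {P : Subgroup G} (hP : Nat.card P = p) (χ : IrrCharacter G) :
    ¬ p ∣ charDegree (χ : G → ℂ) ↔ IsDefectGroup p M (blockOf M (χ : G → ℂ)) P := by
  haveI := isPrime hM
  haveI : Fact p.Prime := ⟨hM.1⟩
  have hp := hM.1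
  have hfac : (Nat.card G).factorization p = 1 := by
    have h1 : 1 ≤ (Nat.card G).factorization p :=
      (hp.dvd_iff_one_le_factorization Nat.card_pos.ne').1 hdiv
    have h2 : ¬ 2 ≤ (Nat.card G).factorization p := fun h =>
      hsq ((hp.pow_dvd_iff_le_factorization Nat.card_pos.ne').2 h)
    omega
  set B := blockOf M (χ : G → ℂ) with hBd
  have hB : IsPBlock M B := isPBlock_blockOf χ
  have hχ : χ ∈ B := mem_blockOf_self χ
  constructor
  · intro h
    obtain ⟨D, hD⟩ := exists_defectGroup hM hB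
    have h1 := defectGroup_card hM hB hD
    have h2 : vmin p B = 0 := by
      have h3 := vmin_le (p := p) hχ
      have h4 : vdeg p χ = 0 := Nat.factorization_eq_zero_of_not_dvd h
      omega
    rw [blockDefect_eq, h2, hfac, pow_one] at h1
    obtain ⟨x, hx⟩ := sylow_conj (p := p) hsq hP h1
    rw [hx]
    exact defectGroup_map_conj hD x
  · intro h hd
    have h1 := defectGroup_card hM hB h
    rw [hP, blockDefect_eq, hfac] at h1
    have h2 : vmin p B = 0 := by
      by_contra h0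
      have : 1 - vmin p B = 0 := by omega
      rw [this, pow_zero] at h1
      exact hp.one_lt.ne' h1
    have hdeg := charDegree_spec χ.2
    have h3 : (charDegree (χ : G → ℂ)).factorization p = (Nat.card G).factorization p := by
      have h4 : 1 ≤ (charDegree (χ : G → ℂ)).factorization p :=
        (hp.dvd_iff_one_le_factorization hdeg.2).1 hd
      have h5 : charDegree (χ : G → ℂ) ∣ Nat.card G := BlockDeg.charDegree_dvd_card χ.2
      have h6 : (charDegree (χ : G → ℂ)).factorization p ≤ (Nat.card G).factorization p :=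
        (Nat.factorization_le_iff_dvd hdeg.2 Nat.card_pos.ne').2 h5 p
      omega
    have h4 := BlockDefZero.blockOf_eq_singleton hM χ h3
    obtain ⟨ψ, hψ, hψ0⟩ := exists_vmin (p := p) (isPBlock_nonempty hB)
    have h5 : ψ = χ := by
      have : ψ ∈ ({χ} : Set (IrrCharacter G)) := by rw [← h4]; exact hψ
      exact this
    rw [h5, h2] at hψ0
    have : (charDegree (χ : G → ℂ)).factorization p = 0 := hψ0
    omega

/-- the blocks with defect group `P` -/
def Bl (p : ℕ) (M : Ideal AlgInt) (P : Subgroup G) : Type u :=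
  {B : Set (IrrCharacter G) // IsPBlock M B ∧ IsDefectGroup p M B P}

instance (P : Subgroup G) : Finite (Bl p M P) := by
  unfold Bl; infer_instance

theorem card_eq_sum (hM : IsPModular p M) (hdiv : p ∣ Nat.card G) (hsq : ¬ p ^ 2 ∣ Nat.card G)
    {P : Subgroup G} (hP : Nat.card P = p) [Fintype (Bl p M P)] :
    Nat.card {χ : IrrCharacter G // ¬ p ∣ charDegree (χ : G → ℂ)} =
      ∑ B : Bl p M P, Nat.card B.1 := by
  classical
  haveI := isPrime hM
  rw [← Nat.card_sigma]
  refine Nat.card_congr ⟨fun χ => ⟨⟨blockOf M (χ.1 : G → ℂ), isPBlock_blockOf χ.1,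
    (not_dvd_iff hM hdiv hsq hP χ.1).1 χ.2⟩, ⟨χ.1, mem_blockOf_self χ.1⟩⟩,
    fun x => ⟨x.2.1, ?_⟩, ?_, ?_⟩
  · rw [not_dvd_iff hM hdiv hsq hP, ← eq_blockOf x.1.2.1 x.2.2]
    exact x.1.2.2
  · intro χ; rfl
  · rintro ⟨⟨B, hB1, hB2⟩, ⟨χ, hχ⟩⟩
    have h : B = blockOf M (χ : G → ℂ) := eq_blockOf hB1 hχ
    subst h
    rfl

theorem main [hpf : Fact p.Prime] (hdiv : p ∣ Nat.card G) (hsq : ¬ p ^ 2 ∣ Nat.card G)
    (S : Sylow p G) :
    Nat.card {χ : IrrCharacter G // ¬ p ∣ charDegree (χ : G → ℂ)} =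
      Nat.card (ConjClasses (Subgroup.normalizer ((S : Subgroup G) : Set G))) := by
  classical
  obtain ⟨M, hM⟩ := H76Char.exists_isPModular p
  haveI := isPrime hM
  have hp : p.Prime := hpf.out
  set P : Subgroup G := (S : Subgroup G) with hPdef
  set N := Subgroup.normalizer (P : Set G) with hN
  have hPp : IsPGroup p P := S.isPGroup'
  have hPcard : Nat.card P = p := by
    obtain ⟨n, hn⟩ := IsPGroup.iff_card.1 hPp
    have h1 : p ∣ Nat.card P := S.dvd_card_of_dvd_card hdiv
    have h2 : n ≠ 0 := by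
      rintro rfl
      rw [hn, pow_zero] at h1
      exact hp.one_lt.ne' (Nat.dvd_one.1 h1)
    have h3 : n < 2 := by
      by_contra h4
      apply hsq
      have h5 : p ^ 2 ∣ p ^ n := pow_dvd_pow p (by omega)
      rw [← hn] at h5
      exact h5.trans (Subgroup.card_subgroup_dvd_card _)
    have h4 : n = 1 := by omega
    rw [hn, h4, pow_one]
  have hPN : P ≤ N := Subgroup.le_normalizer
  have hP'card : Nat.card (P.subgroupOf N) = p := by
    rw [Nat.card_congr (Subgroup.subgroupOfEquivOfLe hPN).toEquiv, hPcard]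
  have hdivN : p ∣ Nat.card N := by
    rw [← hP'card]; exact Subgroup.card_subgroup_dvd_card _
  have hsqN : ¬ p ^ 2 ∣ Nat.card N := fun h => hsq (h.trans (Subgroup.card_subgroup_dvd_card _))
  haveI : (P.subgroupOf N).Normal := Subgroup.normal_in_normalizer
  letI : Fintype (Bl p M P) := Fintype.ofFinite _
  letI : Fintype (Bl p M (P.subgroupOf N)) := Fintype.ofFinite _
  have e1 := card_eq_sum hM hdiv hsq hPcard
  have e2 := card_eq_sum hM hdivN hsqN hP'card
  -- all degrees of the normalizer are prime to `p`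
  have hall : ∀ χ : IrrCharacter N, ¬ p ∣ charDegree (χ : N → ℂ) := by
    intro χ h
    have hcyc : IsCyclic (P.subgroupOf N) := isCyclic_of_prime_card hP'card
    have hcomm : ∀ a ∈ P.subgroupOf N, ∀ b ∈ P.subgroupOf N, a * b = b * a := by
      intro a ha b hb
      have := (IsCyclic.isMulCommutative (α := P.subgroupOf N)).is_comm.comm ⟨a, ha⟩ ⟨b, hb⟩
      exact congrArg Subtype.val this
    have h1 := CharDegrees.ito χ.2 (P.subgroupOf N) hcomm _ (charDegree_spec χ.2).1
    apply hsqN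
    rw [← Subgroup.card_mul_index (P.subgroupOf N), hP'card, pow_two]
    exact mul_dvd_mul_left p (h.trans h1)
  have e3 : Nat.card {χ : IrrCharacter N // ¬ p ∣ charDegree (χ : N → ℂ)} = Nat.card (ConjClasses N) := by
    rw [← CharBasic.card_irr]
    exact Nat.card_congr (Equiv.subtypeUnivEquiv hall)
  rw [← e3, e1, e2]
  -- the bijection of the first main theorem
  obtain ⟨f1, f2⟩ := S0920.result p M hM P hPp
  have hex : ∀ c : Bl p M (P.subgroupOf N), ∃ B : Bl p M P, IsInducedBlock M N c.1 B.1 := by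
    intro c
    obtain ⟨B, hB1, hB2, hB3⟩ := f1 c.1 c.2.1 c.2.2
    exact ⟨⟨B, hB1, hB2⟩, hB3⟩
  choose F hF using hex
  have hinj : Function.Injective F := by
    intro c c' h
    obtain ⟨b, -, hb⟩ := f2 (F c).1 (F c).2.1 (F c).2.2
    have h1 := hb c.1 ⟨c.2.1, c.2.2, hF c⟩
    have h2 := hb c'.1 ⟨c'.2.1, c'.2.2, by rw [h]; exact hF c'⟩
    exact Subtype.ext (h1.trans h2.symm)
  have hsurj : Function.Surjective F := by
    intro B
    obtain ⟨b, ⟨hb1, hb2, hb3⟩, -⟩ := f2 B.1 B.2.1 B.2.2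
    refine ⟨⟨b, hb1, hb2⟩, ?_⟩
    apply Subtype.ext
    exact BlockInd.induced_unique (hF ⟨b, hb1, hb2⟩) hb3
  have hcard : ∀ c : Bl p M (P.subgroupOf N), Nat.card c.1 = Nat.card (F c).1 := by
    intro c
    have hP1 : P ≠ ⊥ := by
      intro h
      rw [h, Subgroup.card_bot] at hPcard
      exact hp.one_lt.ne hPcard
    exact (S4635.result p M hM (F c).1 (F c).2.1 P (F c).2.2 hP1 (isCyclic_of_prime_card hPcard)
      P le_rfl hPcard N hN c.1 c.2.2 (hF c)).1
  symm
  exact Fintype.sum_bijective F ⟨hinj, hsurj⟩ _ _ hcard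

end Cfsg.Agent.Lib.Bk4502
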