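import Cfsg.Agent.Lib.Bk4508a
import Cfsg.Agent.Lib.BRInd
import Cfsg.Agent.Lib.BRCore
import Cfsg.Agent.Lib.DefOneGalois

/-!
# Characters of degree `p - 1` and self-centralizing elements of prime order
-/

set_option autoImplicit false
set_option linter.all false

namespace Cfsg.Agent.Lib.Bk4508

open Cfsg Cfsg.Agent.Lib.BlockRing Cfsg.Agent.Lib.BlockGA Cfsg.Agent.Lib.BlockIdem
open Cfsg.Agent.Lib.DefOneLoc Cfsg.Agent.Lib.DefOneOrd Cfsg.Agent.Lib.CharBasic Cfsg.Agent.Lib.DefOneGram
open Cfsg.Agent.Lib.DefOne Cfsg.Agent.Lib.BlockThird Cfsg.Agent.Lib.DefOnePrin Cfsg.Agent.Lib.BRB0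
open Cfsg.Agent.Lib.BRInd Cfsg.Agent.Lib.BRCore
open scoped ComplexConjugate

universe u

/-- operators: if the trivial character of `P` does not occur, coset sums vanish -/
theorem coset_zero {G : Type u} [Group G] [Finite G] {χ : G → ℂ} (hχ : IsCharacter G χ)
    (P : Subgroup G) [Fintype P] (h0 : ∑ v : P, χ v = 0) (g : G) : ∑ v : P, χ (g * v) = 0 := by
  classical
  obtain ⟨n, ρ, rfl⟩ := hχ
  set σ : Representation ℂ P (Fin n → ℂ) := ρ.comp P.subtype with hσ
  haveI : Invertible (Nat.card P : ℂ) := invertibleOfNonzero (by exact_mod_cast Nat.card_pos.ne')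
  haveI : Invertible (Fintype.card P : ℂ) := invertibleOfNonzero (by exact_mod_cast Fintype.card_ne_zero)
  have hav : Representation.averageMap σ = ⅟(Fintype.card P : ℂ) • ∑ v : P, σ v := by
    rw [Representation.averageMap, GroupAlgebra.average, map_smul, map_sum]
    congr 1
    refine Finset.sum_congr rfl fun v _ => ?_
    simp
  have hproj := Representation.isProj_averageMap σ
  have htr := hproj.trace
  have h1 : LinearMap.trace ℂ _ (∑ v : P, σ v) = 0 := by
    rw [map_sum]
    exact h0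
  rw [hav, map_smul, h1, smul_zero] at htr
  have h2 : Module.finrank ℂ σ.invariants = 0 := by exact_mod_cast htr.symm
  have h3 : σ.invariants = ⊥ := Submodule.finrank_eq_zero.1 h2
  have h4 : Representation.averageMap σ = 0 := by
    apply LinearMap.ext
    intro v
    have := hproj.map_mem v
    rw [h3] at this
    exact (Submodule.mem_bot ℂ).1 this
  rw [hav] at h4
  have h5 : ∑ v : P, σ v = 0 := by
    have hne : ⅟(Fintype.card P : ℂ) ≠ 0 := by
      rw [invOf_eq_inv]; exact inv_ne_zero (by exact_mod_cast Fintype.card_ne_zero)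
    exact (smul_eq_zero.1 h4).resolve_left hne
  have h6 : ∑ v : P, ρ.character (g * v) = LinearMap.trace ℂ _ (ρ g * ∑ v : P, σ v) := by
    rw [Finset.mul_sum, map_sum]
    refine Finset.sum_congr rfl fun v _ => ?_
    simp only [Representation.character, map_mul]
    rfl
  rw [h6, h5, mul_zero, map_zero]

variable {G : Type u} [Group G] [Fintype G] {p : ℕ} [hp : Fact p.Prime] {P N C : Subgroup G}
  {D : Loc p P N C} [Fintype C]

omit [Fintype G] [Fintype C] in
theorem l_inj (hCP : ∀ c : C, D.l c = 0 → c = 1) {c d : C} (h : D.l c = D.l d) : c = d := by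
  have h1 : D.l (c * d⁻¹) + D.l d = D.l c := by
    rw [← D.l_mul, inv_mul_cancel_right]
  rw [h] at h1
  have h2 : D.l (c * d⁻¹) = 0 := by
    have := add_eq_right.1 h1
    exact this
  exact mul_inv_eq_one.1 (hCP _ h2)

theorem card_C (hCP : ∀ c : C, D.l c = 0 → c = 1) : Fintype.card C = p := by
  have hb : Function.Bijective D.l := by
    refine ⟨fun c d h => l_inj hCP h, fun x => ?_⟩
    refine ⟨⟨D.u ^ x.val, C.pow_mem (D.PC D.uP) _⟩, ?_⟩
    rw [l_pow, ZMod.natCast_zmod_val]
  rw [Fintype.card_congr (Equiv.ofBijective _ hb), ZMod.card]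

/-- a character with constant multiplicities has degree divisible by `p` -/
theorem degree_of_dm_zero (hCP : ∀ c : C, D.l c = 0 → c = 1) (χ : IrrCharacter G)
    (h : ∀ i : (ZMod p)ˣ, dm D (χ : G → ℂ) (triv C) i = 0) : p ∣ charDegree (χ : G → ℂ) := by
  classical
  have hmu : ∀ i : ZMod p, mu D (χ : G → ℂ) (triv C) i = mu D (χ : G → ℂ) (triv C) 0 := by
    intro i
    by_cases hi : i = 0
    · rw [hi]
    · exact sub_eq_zero.1 (h (Units.mk0 i hi))
  have hC := card_C (D := D) hCP
  have hp0 : (p : ℂ) ≠ 0 := by exact_mod_cast hp.out.ne_zero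
  have h1 : ∑ i : ZMod p, mu D (χ : G → ℂ) (triv C) i = (χ : G → ℂ) 1 := by
    have e1 : ∀ i : ZMod p, mu D (χ : G → ℂ) (triv C) i =
        (p : ℂ)⁻¹ * ∑ c : C, (χ : G → ℂ) c * conj (lam D i c) := by
      intro i
      rw [mu, classInner, Nat.card_eq_fintype_card, hC]
      congr 1
      refine Finset.sum_congr rfl fun c _ => ?_
      rw [LT_apply]
      show (χ : G → ℂ) c * conj ((1 : ℂ) * lam D i c) = _
      rw [one_mul]
    rw [Finset.sum_congr rfl (fun i _ => e1 i), ← Finset.mul_sum, Finset.sum_comm]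
    have e2 : ∀ c : C, ∑ i : ZMod p, (χ : G → ℂ) c * conj (lam D i c) =
        if c = 1 then (p : ℂ) * (χ : G → ℂ) 1 else 0 := by
      intro c
      rw [← Finset.mul_sum, ← map_sum, sum_lam]
      by_cases hc : c = 1
      · rw [if_pos hc, hc, if_pos (l_one D), Complex.conj_natCast]
        rw [Subgroup.coe_one]; ring
      · rw [if_neg hc, if_neg (fun h' => hc (hCP c h')), map_zero, mul_zero]
    rw [Finset.sum_congr rfl (fun c _ => e2 c), Finset.sum_ite_eq' Finset.univ (1 : C),
      if_pos (Finset.mem_univ _)]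
    field_simp
  rw [Finset.sum_congr rfl (fun i _ => hmu i), Finset.sum_const, Finset.card_univ, ZMod.card,
    nsmul_eq_mul] at h1
  obtain ⟨m, hm⟩ := (χ.2.isCharacter.restrict C).classInner_nat (LT D (triv C) 0).2.isCharacter
  have hm' : mu D (χ : G → ℂ) (triv C) 0 = m := hm
  rw [hm', ← BlockDeg.charDegree_cast_irr χ] at h1
  exact ⟨m, by exact_mod_cast h1.symm⟩

theorem value_neg_one (B : B0 D) (hCP : ∀ c : C, D.l c = 0 → c = 1) (hp2 : p ≠ 2)
    {χ : IrrCharacter G} (h : charDegree (χ : G → ℂ) + 1 = p) (ht : Odd (Nat.card (Tau D))) :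
    ∀ c : C, D.l c ≠ 0 → (χ : G → ℂ) c = -1 := by
  classical
  have hpe := p_eq D
  have htau : 0 < Nat.card (Tau D) := Nat.card_pos
  have he : 0 < Nat.card (κu D).range := Nat.card_pos
  have hp3 := hp.out.two_le
  by_cases hX : χ ∈ B.X
  · intro c hc
    rw [B.valX χ hX c hc]
    rcases B.δ_pm χ hX with h1 | h1
    · exfalso
      obtain ⟨k, hk⟩ := B.degX χ hX
      rw [h1] at hk
      have h2 : (p : ℤ) ∣ 2 := ⟨1 - k, by
        have : (p : ℤ) = charDegree (χ : G → ℂ) + 1 := by exact_mod_cast h.symm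
        rw [hk] at this
        linarith⟩
      have h3 : p ∣ 2 := by exact_mod_cast h2
      have h4 := Nat.le_of_dvd (by norm_num) h3
      omega
    · rw [h1]; simp
  · by_cases hY : ∃ q, χ = B.Y q
    · obtain ⟨q, rfl⟩ := hY
      obtain ⟨k, hk⟩ := B.degY q
      have hdeg : (p : ℤ) = charDegree (B.Y q : G → ℂ) + 1 := by exact_mod_cast h.symm
      rw [hk] at hdeg
      set e := Nat.card (κu D).range with hedef
      rcases B.s_pm with hs | hs
      · rw [hs] at hdeg
        have h2 : (p : ℤ) ∣ ((e + 1 : ℕ) : ℤ) := ⟨1 - k, by push_cast; linarith⟩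
        have h3 : p ∣ e + 1 := by exact_mod_cast h2
        have h4 : p ≤ e + 1 := Nat.le_of_dvd (by omega) h3
        have h5 : Nat.card (Tau D) = 1 := by
          have h6 : e * Nat.card (Tau D) ≤ e * 1 := by omega
          have h7 := Nat.le_of_mul_le_mul_left h6 he
          omega
        have hsub : Subsingleton (Tau D) := (Nat.card_eq_one_iff_unique.1 h5).1
        intro c hc
        rw [B.valY q c hc, hs]
        have h8 : ∀ i : (ZMod p)ˣ, (if (i : Tau D) = q then lam D (i : ZMod p) c else 0) =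
            lam D (i : ZMod p) c := fun i => if_pos (Subsingleton.elim _ _)
        rw [Finset.sum_congr rfl (fun i _ => h8 i), sum_units_lam D hc]
        simp
      · exfalso
        rw [hs] at hdeg
        have h2 : (p : ℤ) ∣ ((e - 1 : ℕ) : ℤ) := ⟨k - 1, by
          rw [Nat.cast_sub he]; push_cast; linarith⟩
        have h3 : p ∣ e - 1 := by exact_mod_cast h2
        have h4 : e < p := by
          have : e * 1 ≤ e * Nat.card (Tau D) := Nat.mul_le_mul_left e htau
          omega
        have h5 : e - 1 = 0 := Nat.eq_zero_of_dvd_of_lt h3 (by omega)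
        have h6 : e = 1 := by omega
        rw [h6, one_mul] at hpe
        rcases hp.out.eq_two_or_odd' with h7 | h7
        · exact hp2 h7
        · rw [hpe] at h7
          have : Odd (Nat.card (Tau D) + 1 + 1) := by
            have := ht
            rw [Nat.odd_iff] at *
            omega
          rw [Nat.odd_iff] at *
          omega
    · exfalso
      push Not at hY
      have h1 := degree_of_dm_zero hCP χ (B.dmO χ hX hY)
      have h2 : 0 < charDegree (χ : G → ℂ) := BlockDeg.charDegree_pos χ.2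
      have h3 := Nat.le_of_dvd h2 h1
      omega

/-- the element `u ^ i` of `C` -/
def up (D : Loc p P N C) (i : ZMod p) : C := ⟨D.u ^ i.val, C.pow_mem (D.PC D.uP) _⟩

omit [Fintype C] in
theorem l_up (i : ZMod p) : D.l (up D i) = i := by
  rw [up, l_pow, ZMod.natCast_zmod_val]

omit [Fintype C] in
theorem orderOf_up {i : ZMod p} (hi : i ≠ 0) : orderOf ((up D i : C) : G) = p := by
  have h1 : p ∣ orderOf ((up D i : C) : G) := by
    by_contra h
    have := (D.l_reg (up D i)).2 h
    rw [l_up] at this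
    exact hi this
  have h2 : orderOf ((up D i : C) : G) ∣ p := by
    have : orderOf (D.u ^ i.val) ∣ orderOf D.u := orderOf_pow_dvd _
    rw [D.ordu] at this
    exact this
  exact Nat.dvd_antisymm h2 h1

theorem mk_eq_iff (hCP : ∀ c : C, D.l c = 0 → c = 1) (i j : (ZMod p)ˣ) :
    ConjClasses.mk ((up D (i : ZMod p) : C) : G) = ConjClasses.mk ((up D (j : ZMod p) : C) : G) ↔
      (i : Tau D) = (j : Tau D) := by
  rw [ConjClasses.mk_eq_mk_iff_isConj, QuotientGroup.eq]
  constructor
  · intro h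
    obtain ⟨g, hg⟩ := isConj_iff.1 h
    have hgN : g ∈ N := D.ti g _ (up D (i : ZMod p)).2 (by rw [orderOf_up i.ne_zero])
      (by rw [hg]; exact (up D (j : ZMod p)).2)
    have h1 := D.κ_conj ⟨g, hgN⟩ (up D (i : ZMod p)) (up D (j : ZMod p)) hg.symm
    rw [l_up, l_up] at h1
    refine ⟨⟨g, hgN⟩, ?_⟩
    apply Units.ext
    rw [κu_apply, Units.val_mul, h1, mul_comm (D.κ _) _, ← mul_assoc, ← Units.val_mul,
      inv_mul_cancel, Units.val_one, one_mul]
  · rintro ⟨n, hn⟩
    have h1 : D.κ n = ((i⁻¹ * j : (ZMod p)ˣ) : ZMod p) := by rw [← κu_apply, hn]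
    rw [isConj_iff]
    refine ⟨n, ?_⟩
    have hmem : (n : G) * (up D (i : ZMod p) : C) * (n : G)⁻¹ ∈ C := D.conj_mem n n.2 _ (up D (i : ZMod p)).2
    have h2 := D.κ_conj n (up D (i : ZMod p)) ⟨_, hmem⟩ rfl
    have h3 : (⟨_, hmem⟩ : C) = up D (j : ZMod p) := by
      apply l_inj hCP
      rw [h2, l_up, l_up, h1, Units.val_mul, mul_comm, ← mul_assoc, ← Units.val_mul, mul_inv_cancel,
        Units.val_one, one_mul]
    exact congrArg Subtype.val h3

theorem card_classes (Q : Sylow p G) (hPQ : P = Q) (hCP : ∀ c : C, D.l c = 0 → c = 1) :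
    Nat.card {Cl : ConjClasses G // ∃ g ∈ Cl.carrier, orderOf g = p} = Nat.card (Tau D) := by
  classical
  symm
  let F : Tau D → {Cl : ConjClasses G // ∃ g ∈ Cl.carrier, orderOf g = p} := fun q =>
    ⟨ConjClasses.mk ((up D ((Quotient.out q : (ZMod p)ˣ) : ZMod p) : C) : G),
      ⟨_, ConjClasses.mem_carrier_mk, orderOf_up (Units.ne_zero _)⟩⟩
  refine Nat.card_congr (Equiv.ofBijective F ⟨?_, ?_⟩)
  · intro q q' h
    have h1 := congrArg Subtype.val h
    have h2 := (mk_eq_iff hCP _ _).1 h1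
    rw [← QuotientGroup.out_eq' q, ← QuotientGroup.out_eq' q']
    exact h2
  · rintro ⟨Cl, g, hg, ho⟩
    obtain ⟨z, c, hzc, hc⟩ := DefOneGalois.exists_conj_C (D := D) Q hPQ (g := g) (by rw [ho])
    refine ⟨((Units.mk0 (D.l c) hc : (ZMod p)ˣ) : Tau D), ?_⟩
    apply Subtype.ext
    show ConjClasses.mk _ = Cl
    have h1 : ConjClasses.mk ((up D ((Quotient.out ((Units.mk0 (D.l c) hc : (ZMod p)ˣ) : Tau D) : (ZMod p)ˣ) : ZMod p) : C) : G) =
        ConjClasses.mk ((up D ((Units.mk0 (D.l c) hc : (ZMod p)ˣ) : ZMod p) : C) : G) := by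
      rw [mk_eq_iff hCP]
      exact QuotientGroup.out_eq' _
    rw [h1]
    have h2 : up D ((Units.mk0 (D.l c) hc : (ZMod p)ˣ) : ZMod p) = c := by
      apply l_inj hCP
      rw [l_up]; rfl
    rw [h2]
    have h3 : ConjClasses.mk g = Cl := by
      rw [ConjClasses.mem_carrier_iff_mk_eq] at hg
      exact hg
    rw [← h3, ConjClasses.mk_eq_mk_iff_isConj, isConj_comm, isConj_iff]
    exact ⟨z, hzc.symm⟩

/-- the value at an element of the normalizer outside of `P` -/
theorem value_zero (hCP : ∀ c : C, D.l c = 0 → c = 1) {χ : IrrCharacter G}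
    (h1 : charDegree (χ : G → ℂ) + 1 = p) (hv : ∀ c : C, D.l c ≠ 0 → (χ : G → ℂ) c = -1)
    (n : N) (hn : D.κ n ≠ 1) : (χ : G → ℂ) n = 0 := by
  classical
  have hC := card_C (D := D) hCP
  have hp0 : (p : ℂ) ≠ 0 := by exact_mod_cast hp.out.ne_zero
  have h0 : ∑ v : C, (χ : G → ℂ) v = 0 := by
    have e1 : ∀ v : C, (χ : G → ℂ) v = -1 + (if v = 1 then (p : ℂ) else 0) := by
      intro v
      by_cases hv1 : v = 1
      · rw [if_pos hv1, hv1, Subgroup.coe_one, ← BlockDeg.charDegree_cast_irr χ]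
        have : (p : ℂ) = charDegree (χ : G → ℂ) + 1 := by exact_mod_cast h1.symm
        rw [this]; ring
      · rw [if_neg hv1, hv v (fun h => hv1 (hCP v h)), add_zero]
    rw [Finset.sum_congr rfl (fun v _ => e1 v), Finset.sum_add_distrib, Finset.sum_const,
      Finset.card_univ, hC, Finset.sum_ite_eq' Finset.univ (1 : C), if_pos (Finset.mem_univ _)]
    simp
  have h2 := coset_zero χ.2.isCharacter C h0 (n : G)
  -- all elements of the coset are conjugate
  have hcomm : ∀ a b : C, a * b = b * a := by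
    intro a b
    apply l_inj hCP
    rw [D.l_mul, D.l_mul, add_comm]
  have h3 : ∀ v : C, (χ : G → ℂ) ((n : G) * v) = (χ : G → ℂ) n := by
    intro v
    -- choose `w` with `w n w⁻¹ = n (n⁻¹ w n) w⁻¹`
    have hκ : D.κ n⁻¹ - 1 ≠ 0 := by
      intro h
      have h4 : D.κ n⁻¹ = 1 := sub_eq_zero.1 h
      have h5 := (D.κ_eq n⁻¹).1 h4
      apply hn
      rw [D.κ_eq]
      have := C.inv_mem h5
      rw [Subgroup.coe_inv, inv_inv] at this
      exact this
    set x : ZMod p := D.l v * (D.κ n⁻¹ - 1)⁻¹ with hx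
    set w : C := up D x with hw
    have hmem : ((n⁻¹ : N) : G) * w * ((n⁻¹ : N) : G)⁻¹ ∈ C := D.conj_mem _ (n⁻¹).2 _ w.2
    have h4 := D.κ_conj n⁻¹ w ⟨_, hmem⟩ rfl
    have h5 : (⟨_, hmem⟩ : C) * w⁻¹ = v := by
      apply l_inj hCP
      have e1 : D.l ((⟨_, hmem⟩ : C) * w⁻¹) + D.l w = D.l (⟨_, hmem⟩ : C) := by
        rw [← D.l_mul, inv_mul_cancel_right]
      have e2 : D.l ((⟨_, hmem⟩ : C) * w⁻¹) = D.l (⟨_, hmem⟩ : C) - D.l w := eq_sub_of_add_eq e1
      rw [e2, h4, hw, l_up, hx]
      have e3 : D.κ n⁻¹ * (D.l v * (D.κ n⁻¹ - 1)⁻¹) - D.l v * (D.κ n⁻¹ - 1)⁻¹ =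
          D.l v * ((D.κ n⁻¹ - 1) * (D.κ n⁻¹ - 1)⁻¹) := by ring
      rw [e3, mul_inv_cancel₀ hκ, mul_one]
    have h6 : (n : G) * v = (w : G) * n * (w : G)⁻¹ := by
      rw [← h5]
      show (n : G) * ((((n⁻¹ : N) : G) * w * ((n⁻¹ : N) : G)⁻¹) * (w : G)⁻¹) = _
      rw [Subgroup.coe_inv]
      group
    rw [h6, χ.2.isClassFunction]
  rw [Finset.sum_congr rfl (fun v _ => h3 v), Finset.sum_const, Finset.card_univ, hC, nsmul_eq_mul] at h2
  exact (mul_eq_zero.1 h2).resolve_left hp0

omit [Fintype G] hp in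
theorem exists_sylow [Finite G] (hp : p.Prime) {x : G} (hx : orderOf x = p)
    (hC : Subgroup.centralizer ({x} : Set G) = Subgroup.zpowers x) :
    ∃ Q : Sylow p G, (Q : Subgroup G) = Subgroup.zpowers x := by
  haveI : Fact p.Prime := ⟨hp⟩
  have hcard : Nat.card (Subgroup.zpowers x) = p := by rw [Nat.card_zpowers, hx]
  have hP : IsPGroup p (Subgroup.zpowers x) := IsPGroup.of_card (n := 1) (by rw [hcard, pow_one])
  obtain ⟨Q, hQ⟩ := hP.exists_le_sylow
  refine ⟨Q, le_antisymm ?_ hQ⟩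
  have hxQ : x ∈ (Q : Subgroup G) := hQ (Subgroup.mem_zpowers x)
  haveI : Nontrivial (Q : Subgroup G) := by
    refine ⟨⟨⟨x, hxQ⟩, 1, fun h => ?_⟩⟩
    have : x = 1 := congrArg Subtype.val h
    rw [this, orderOf_one] at hx
    exact hp.one_lt.ne hx
  haveI := Q.isPGroup'.center_nontrivial
  obtain ⟨z, hz⟩ := exists_ne (1 : Subgroup.center (Q : Subgroup G))
  set c : G := ((z : (Q : Subgroup G)) : G) with hc
  have hc1 : c ≠ 1 := by
    intro h
    apply hz
    apply Subtype.ext
    exact Subtype.ext h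
  have hcx : c ∈ Subgroup.zpowers x := by
    rw [← hC, Subgroup.mem_centralizer_singleton_iff]
    have := Subgroup.mem_center_iff.1 z.2 ⟨x, hxQ⟩
    exact (congrArg Subtype.val this).symm
  have hxc : x ∈ Subgroup.zpowers c := by
    have h1 : Subgroup.zpowers c ≤ Subgroup.zpowers x := Subgroup.zpowers_le.2 hcx
    have h2 : Nat.card (Subgroup.zpowers c) ∣ p := by
      rw [← hcard]; exact Subgroup.card_dvd_of_le h1
    have h3 : Nat.card (Subgroup.zpowers c) = p := by
      rcases (Nat.dvd_prime hp).1 h2 with h | h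
      · exfalso
        rw [Nat.card_zpowers, orderOf_eq_one_iff] at h
        exact hc1 h
      · exact h
    have h4 : Subgroup.zpowers c = Subgroup.zpowers x :=
      Subgroup.eq_of_le_of_card_ge h1 (by rw [h3, hcard])
    rw [h4]; exact Subgroup.mem_zpowers x
  intro g hg
  rw [← hC, Subgroup.mem_centralizer_singleton_iff]
  have h1 : Commute g c := by
    have := Subgroup.mem_center_iff.1 z.2 ⟨g, hg⟩
    exact congrArg Subtype.val this
  obtain ⟨k, hk⟩ := Subgroup.mem_zpowers_iff.1 hxc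
  rw [← hk]
  exact (h1.zpow_right k).eq

end Cfsg.Agent.Lib.Bk4508
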