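import Mathlib
import Cfsg.Agent.Lib.H25BpI
import Cfsg.Agent.Lib.H52Dih5
import Cfsg.Agent.Lib.BlockColumn
import Cfsg.Agent.Lib.CharBasic2
import Cfsg.Agent.S4667

/-!
# Section functions on the principal block (helper52)
-/

set_option autoImplicit false

namespace Cfsg.Agent.Lib.H52E16b

open Cfsg Cfsg.Agent.Lib.BlockRing Cfsg.Agent.Lib.BlockThird Cfsg.Agent.Lib.H52Dih5
open Cfsg.Agent.Lib.Subsec (Cz mem_Cz)
open Cfsg.Agent.Lib.CharBasic
open scoped ComplexConjugate Classical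

universe u

variable {G : Type u} [Group G] [Finite G] {p : ℕ} {M : Ideal AlgInt}

/-- functions depending only on the class of the `p`-part -/
def Sec (p : ℕ) (F : G → ℂ) : Prop :=
  ∀ g h u v : G, IsPPart p g u → IsPPart p h v → IsConj u v → F g = F h

noncomputable def cF [Fintype G] (F : G → ℂ) (χ ψ : IrrCharacter G) : ℂ :=
  classInner (fun g => F g * (χ : G → ℂ) g) (ψ : G → ℂ)

theorem kernel_swap (hM : IsPModular p M) {F : G → ℂ} (hF : Sec p F) (x y : G) :
    F y * ∑ ψ ∈ PB M G, (ψ : G → ℂ) x * conj ((ψ : G → ℂ) y) =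
      F x * ∑ ψ ∈ PB M G, (ψ : G → ℂ) x * conj ((ψ : G → ℂ) y) := by
  haveI : Fact p.Prime := ⟨hM.1⟩
  have hx : IsPPart p x (H25BpF.pp p x) :=
    ⟨H25BpF.pq p x, H25BpF.pp_mul_pq p x, H25BpF.pp_comm p x, H25BpF.pp_order p x, H25BpF.pq_order p x⟩
  have hy : IsPPart p y (H25BpF.pp p y) :=
    ⟨H25BpF.pq p y, H25BpF.pp_mul_pq p y, H25BpF.pp_comm p y, H25BpF.pp_order p y, H25BpF.pq_order p y⟩
  by_cases hc : IsConj (H25BpF.pp p x) (H25BpF.pp p y)
  · rw [hF x y _ _ hx hy hc]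
  · have h1 := BlockOrth.block_orthogonality hM (B := principalBlock M G) isPBlock_principal hx hy hc
    rw [finsum_mem_eq_finite_toFinset_sum _ (Set.toFinite _)] at h1
    have h2 : ∑ ψ ∈ PB M G, (ψ : G → ℂ) x * conj ((ψ : G → ℂ) y) = 0 := by
      rw [← h1]
      refine Finset.sum_congr rfl fun ψ _ => ?_
      rw [ψ.2.isCharacter.inv]
    rw [h2, mul_zero, mul_zero]

variable [Fintype G]

theorem sum_cF (F : G → ℂ) (χ : IrrCharacter G) (x : G) :
    ∑ ψ ∈ PB M G, cF F χ ψ * (ψ : G → ℂ) x = (Nat.card G : ℂ)⁻¹ * ∑ y : G,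
      (χ : G → ℂ) y * (F y * ∑ ψ ∈ PB M G, (ψ : G → ℂ) x * conj ((ψ : G → ℂ) y)) := by
  unfold cF
  simp only [classInner_def, Finset.mul_sum, Finset.sum_mul]
  rw [Finset.sum_comm]
  exact Finset.sum_congr rfl fun y _ => Finset.sum_congr rfl fun ψ _ => by ring

theorem expand (hM : IsPModular p M) {F : G → ℂ} (hF : Sec p F) {χ : IrrCharacter G}
    (hχ : χ ∈ PB M G) (x : G) :
    ∑ ψ ∈ PB M G, cF F χ ψ * (ψ : G → ℂ) x = F x * (χ : G → ℂ) x := by
  have h1 : (χ : G → ℂ) x = (Nat.card G : ℂ)⁻¹ * ∑ y : G,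
      (χ : G → ℂ) y * (1 * ∑ ψ ∈ PB M G, (ψ : G → ℂ) x * conj ((ψ : G → ℂ) y)) := by
    have h2 := sum_cF (M := M) (fun _ => (1 : ℂ)) χ x
    rw [← h2]
    unfold cF
    simp only [one_mul]
    have h3 : ∀ ψ ∈ PB M G, classInner (fun g => (χ : G → ℂ) g) (ψ : G → ℂ) * (ψ : G → ℂ) x =
        if χ = ψ then (ψ : G → ℂ) x else 0 := by
      intro ψ _
      have : (fun g => (χ : G → ℂ) g) = (χ : G → ℂ) := rfl
      rw [this, irr_orthonormal]
      split_ifs <;> simp
    rw [Finset.sum_congr rfl h3, Finset.sum_ite_eq, if_pos hχ]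
  rw [sum_cF]
  conv_rhs => rw [h1]
  have h4 : ∀ c S : ℂ, F x * (c * S) = c * (F x * S) := fun c S => by ring
  rw [h4]
  refine congrArg _ ?_
  rw [Finset.mul_sum]
  refine Finset.sum_congr rfl fun y _ => ?_
  rw [kernel_swap hM hF x y]
  ring

/-- products -/
theorem mul_cF (hM : IsPModular p M) {F F' : G → ℂ} (hF : Sec p F) {χ : IrrCharacter G}
    (hχ : χ ∈ PB M G) (ψ : IrrCharacter G) :
    ∑ φ ∈ PB M G, cF F χ φ * cF F' φ ψ = cF (fun g => F g * F' g) χ ψ := by
  unfold cF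
  have h1 := fun x => expand hM hF hχ x
  unfold cF at h1
  simp only [classInner_def (φ := fun g => F' g * _), classInner_def (φ := fun g => F g * F' g * _)]
  simp only [Finset.mul_sum]
  rw [Finset.sum_comm]
  refine Finset.sum_congr rfl fun y _ => ?_
  have h2 : F y * F' y * (χ : G → ℂ) y = F' y * (F y * (χ : G → ℂ) y) := by ring
  rw [h2, ← h1 y, Finset.mul_sum, Finset.sum_mul, Finset.mul_sum]
  refine Finset.sum_congr rfl fun φ _ => ?_
  ring

theorem symm_cF {F : G → ℂ} (hF : ∀ g, conj (F g) = F g) (χ ψ : IrrCharacter G) :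
    cF F ψ χ = conj (cF F χ ψ) := by
  unfold cF
  rw [classInner_def, classInner_def, map_mul, map_sum, map_inv₀, Complex.conj_natCast]
  congr 1
  refine Finset.sum_congr rfl fun y _ => ?_
  rw [map_mul, map_mul, hF, Complex.conj_conj]
  ring

theorem int_cF {F : G → ℂ} (hF : IsGeneralizedCharacter G F) (χ ψ : IrrCharacter G) :
    ∃ n : ℤ, cF F χ ψ = n := by
  have h1 : IsGeneralizedCharacter G (fun g => F g * (χ : G → ℂ) g) := hF.mul χ.2.isGeneralized
  exact h1.classInner_int ψ.2.isGeneralized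

/-- the diagonal of a nonnegative function is nonnegative -/
theorem diag_cF (F : G → ℂ) (χ : IrrCharacter G) :
    cF F χ χ = (Nat.card G : ℂ)⁻¹ * ∑ g : G, F g * ((‖(χ : G → ℂ) g‖ ^ 2 : ℝ) : ℂ) := by
  unfold cF
  rw [classInner_def]
  congr 1
  refine Finset.sum_congr rfl fun y _ => ?_
  rw [mul_assoc, Complex.mul_conj, Complex.normSq_eq_norm_sq]

/-- the sum over one section -/
theorem section_total (hM : IsPModular p M) {u : G} (hu : ∃ k, orderOf u = p ^ k) :
    ∑ s : Cz u, (if p ∣ orderOf s then 0 else ∑ χ ∈ PB M G,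
      ((χ : G → ℂ) (u * (s : G)) * conj ((χ : G → ℂ) (u * (s : G))))) =
      (Nat.card (Cz u) : ℂ) * (blockRank p (principalBlock M (Cz u)) : ℂ) := by
  haveI : Fact p.Prime := ⟨hM.1⟩
  obtain ⟨k, hk⟩ := hu
  have h1 := S4667.result p M hM (principalBlock M (Cz u)) isPBlock_principal
  rw [h1]
  refine Finset.sum_congr rfl fun s _ => ?_
  split_ifs with h
  · rw [finsum_mem_eq_finite_toFinset_sum _ (Set.toFinite _)]
    symm
    refine Finset.sum_eq_zero fun χ _ => ?_
    rw [BlockCount.pRegularPart_eq]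
    unfold BlockPair.preg
    rw [if_pos h, zero_mul]
  · have h2 := BlockSection.principal_section_sum hM hk (H := Cz u) (fun g => mem_Cz)
      (y := s) (y' := s) h h
    rw [finsum_mem_eq_finite_toFinset_sum _ (Set.toFinite _)] at h2
    rw [h2]
    refine finsum_mem_congr rfl fun χ _ => ?_
    rw [BlockCount.pRegularPart_eq]
    unfold BlockPair.preg
    rw [if_neg h, χ.2.isCharacter.inv]

/-- the total of one section -/
noncomputable def W (M : Ideal AlgInt) (p : ℕ) (u : G) : ℂ :=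
  ∑ s : Cz u, (if p ∣ orderOf s then 0 else ∑ χ ∈ PB M G,
      ((χ : G → ℂ) (u * (s : G)) * conj ((χ : G → ℂ) (u * (s : G)))))

theorem W_conj (u c : G) : W M p (c * u * c⁻¹) = W M p u := by
  unfold W
  symm
  refine Finset.sum_bij (fun s _ => (⟨c * (s : G) * c⁻¹, ?_⟩ : Cz (c * u * c⁻¹)))
    (fun _ _ => Finset.mem_univ _) ?_ ?_ ?_
  · have h1 := mem_Cz.mp s.2
    rw [mem_Cz]
    have := h1.map (MulAut.conj c).toMonoidHom
    simpa using this
  · intro s _ t _ h
    have h1 := congrArg Subtype.val h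
    simp only at h1
    exact Subtype.ext (mul_left_cancel (mul_right_cancel h1))
  · intro b _
    have h1 := mem_Cz.mp b.2
    refine ⟨⟨c⁻¹ * (b : G) * c, ?_⟩, Finset.mem_univ _, ?_⟩
    · rw [mem_Cz]
      have h2 := h1.map (MulAut.conj c⁻¹).toMonoidHom
      have e1 : (MulAut.conj c⁻¹).toMonoidHom (c * u * c⁻¹) = u := by
        simp [mul_assoc]
      have e2 : (MulAut.conj c⁻¹).toMonoidHom (b : G) = c⁻¹ * (b : G) * c := by
        simp
      rw [e1, e2] at h2
      exact h2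
    · apply Subtype.ext
      show c * (c⁻¹ * (b : G) * c) * c⁻¹ = b
      group
  · intro s _
    have e1 : orderOf (⟨c * (s : G) * c⁻¹, by
        have h1 := mem_Cz.mp s.2
        rw [mem_Cz]
        have := h1.map (MulAut.conj c).toMonoidHom
        simpa using this⟩ : Cz (c * u * c⁻¹)) = orderOf s := by
      rw [← Subgroup.orderOf_coe, ← Subgroup.orderOf_coe]
      exact BlockThird.orderOf_conj _ _
    simp only [e1]
    split_ifs
    · rfl
    · refine Finset.sum_congr rfl fun χ _ => ?_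
      have e2 : (c * u * c⁻¹) * (c * (s : G) * c⁻¹) = c * (u * (s : G)) * c⁻¹ := by group
      rw [e2, χ.2.isClassFunction]

/-- the trace formula -/
theorem trace_cF (hM : IsPModular p M) {F : G → ℂ} (hF : Sec p F) (X : Finset G)
    (hX : ∀ x ∈ X, ∃ k : ℕ, orderOf x = p ^ k)
    (hXrep : ∀ g : G, (∃ k : ℕ, orderOf g = p ^ k) → ∃! x, x ∈ X ∧ IsConj g x) :
    ∑ χ ∈ PB M G, cF F χ χ = ∑ x ∈ X, F x * (blockRank p (principalBlock M (Cz x)) : ℂ) := by
  haveI : Fact p.Prime := ⟨hM.1⟩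
  have hG : (Nat.card G : ℂ) ≠ 0 := by exact_mod_cast Nat.card_pos.ne'
  have h1 : ∑ χ ∈ PB M G, cF F χ χ = (Nat.card G : ℂ)⁻¹ *
      ∑ g : G, F g * ∑ χ ∈ PB M G, (χ : G → ℂ) g * conj ((χ : G → ℂ) g) := by
    unfold cF
    simp only [classInner_def, Finset.mul_sum]
    rw [Finset.sum_comm]
    refine Finset.sum_congr rfl fun y _ => Finset.sum_congr rfl fun ψ _ => ?_
    ring
  rw [h1, H25BpI.sum_sections (p := p)]
  have h2 : ∀ u ∈ H25BpI.PE p G, (∑ s : Cz u, if p ∣ orderOf s then 0 else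
      F (u * (s : G)) * ∑ χ ∈ PB M G, (χ : G → ℂ) (u * (s : G)) * conj ((χ : G → ℂ) (u * (s : G)))) =
      F u * W M p u := by
    intro u hu
    have hu' := H25BpI.mem_PE.mp hu
    unfold W
    rw [Finset.mul_sum]
    refine Finset.sum_congr rfl fun s _ => ?_
    split_ifs with hs
    · rw [mul_zero]
    · congr 1
      refine hF _ _ u u ⟨s, rfl, mem_Cz.mp s.2, hu', by rwa [Subgroup.orderOf_coe]⟩
        ⟨1, mul_one u, Commute.one_right u, hu', ?_⟩ (IsConj.refl u)
      rw [orderOf_one, Nat.dvd_one]; exact hM.1.one_lt.ne'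
  rw [Finset.sum_congr rfl h2]
  -- representatives
  have hrep : ∀ u ∈ H25BpI.PE p G, ∃ x, x ∈ X ∧ IsConj u x := fun u hu =>
    (hXrep u (H25BpI.mem_PE.mp hu)).exists
  choose! r hr using hrep
  rw [← Finset.sum_fiberwise_of_maps_to (s := H25BpI.PE p G) (t := X) (g := r) (fun u hu => (hr u hu).1),
    Finset.mul_sum]
  refine Finset.sum_congr rfl fun x hx => ?_
  have hxo := hX x hx
  have h3 : ∀ u ∈ (H25BpI.PE p G).filter (fun u => r u = x), F u * W M p u = F x * W M p x := by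
    intro u hu
    rw [Finset.mem_filter] at hu
    have h4 := (hr u hu.1).2
    rw [hu.2] at h4
    have hu' := H25BpI.mem_PE.mp hu.1
    have h1' : ¬ p ∣ orderOf (1 : G) := by
      rw [orderOf_one, Nat.dvd_one]; exact hM.1.one_lt.ne'
    rw [hF u x u x ⟨1, mul_one u, Commute.one_right u, hu', h1'⟩
      ⟨1, mul_one x, Commute.one_right x, hxo, h1'⟩ h4]
    obtain ⟨c, rfl⟩ := isConj_iff.mp h4
    rw [W_conj]
  rw [Finset.sum_congr rfl h3, Finset.sum_const, nsmul_eq_mul]
  have h5 : ((H25BpI.PE p G).filter (fun u => r u = x)) = Finset.univ.filter (fun u => IsConj x u) := by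
    ext u
    rw [Finset.mem_filter, Finset.mem_filter]
    constructor
    · rintro ⟨hu, hux⟩
      have := (hr u hu).2
      rw [hux] at this
      exact ⟨Finset.mem_univ _, this.symm⟩
    · rintro ⟨-, hu⟩
      have hu1 : ∃ k : ℕ, orderOf u = p ^ k := by
        obtain ⟨k, hk⟩ := hxo
        exact ⟨k, by rw [← BlockCount.orderOf_isConj hu, hk]⟩
      have hu2 := H25BpI.mem_PE.mpr hu1
      refine ⟨hu2, ?_⟩
      exact (hXrep u hu1).unique (hr u hu2) ⟨hx, hu.symm⟩
  have h6 : (((Finset.univ.filter (fun u => IsConj x u)).card : ℕ) : ℂ) * (Nat.card (Cz x) : ℂ) =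
      (Nat.card G : ℂ) := by
    have := card_isConj_mul_card_centralizer x
    rw [← this]
    push_cast
    congr 2
    rw [Nat.card_eq_fintype_card, Fintype.card_subtype]
  have h7 : W M p x = (Nat.card (Cz x) : ℂ) * (blockRank p (principalBlock M (Cz x)) : ℂ) :=
    section_total hM hxo
  rw [h5, h7]
  calc (Nat.card G : ℂ)⁻¹ * ((((Finset.univ.filter (fun u => IsConj x u)).card : ℕ) : ℂ) *
        (F x * ((Nat.card (Cz x) : ℂ) * (blockRank p (principalBlock M (Cz x)) : ℂ)))) =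
      (Nat.card G : ℂ)⁻¹ * ((((Finset.univ.filter (fun u => IsConj x u)).card : ℕ) : ℂ) *
        (Nat.card (Cz x) : ℂ)) * (F x * (blockRank p (principalBlock M (Cz x)) : ℂ)) := by ring
    _ = _ := by rw [h6, inv_mul_cancel₀ hG, one_mul]

end Cfsg.Agent.Lib.H52E16b
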