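import Mathlib

/-!
# Groups of order nine acting faithfully on groups of order sixteen (helper52)
-/

set_option autoImplicit false

open Finset

namespace Cfsg.Agent.Lib.H52E16c

open scoped Classical

variable {A P : Type*} [Group A] [Finite A] [Group P] [Finite P] [MulDistribMulAction A P]

/-- fixed points -/
def Fx (B : Subgroup A) : Subgroup P where
  carrier := {x | ∀ b ∈ B, b • x = x}
  mul_mem' := by
    intro x y hx hy b hb
    rw [smul_mul', hx b hb, hy b hb]
  one_mem' := fun b _ => smul_one b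
  inv_mem' := by
    intro x hx b hb
    rw [smul_inv', hx b hb]

theorem mem_Fx {B : Subgroup A} {x : P} : x ∈ Fx (P := P) B ↔ ∀ b ∈ B, b • x = x := Iff.rfl

theorem Fx_anti {B C : Subgroup A} (h : B ≤ C) : Fx (P := P) C ≤ Fx B := fun _ hx b hb => hx b (h hb)

section

variable (hA : Nat.card A = 9) (hP : Nat.card P = 16)
  (hf : ∀ a : A, (∀ x : P, a • x = x) → a = 1)
include hA

theorem comm (a b : A) : a * b = b * a := by
  have h1 : Nat.card A = 3 ^ 2 := by rw [hA]; norm_num
  haveI : Fact (Nat.Prime 3) := ⟨Nat.prime_three⟩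
  exact (IsPGroup.isMulCommutative_of_card_eq_prime_sq h1).is_comm.comm a b

include hP hf

theorem card_Fx {B : Subgroup A} (hB : B ≠ ⊥) : Nat.card (Fx (P := P) B) = 1 ∨ Nat.card (Fx (P := P) B) = 4 := by
  haveI : Fact (Nat.Prime 3) := ⟨Nat.prime_three⟩
  have hA3 : IsPGroup 3 A := IsPGroup.of_card (n := 2) (by rw [hA]; norm_num)
  have h1 := (hA3.to_subgroup B).card_modEq_card_fixedPoints (α := P)
  have h2 : Nat.card (MulAction.fixedPoints B P) = Nat.card (Fx (P := P) B) := by
    apply Nat.card_congr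
    refine Equiv.subtypeEquivRight fun x => ?_
    rw [MulAction.mem_fixedPoints]
    exact ⟨fun h b hb => h ⟨b, hb⟩, fun h b => h b b.2⟩
  rw [h2, hP] at h1
  have h3 : Nat.card (Fx (P := P) B) ∣ 2 ^ 4 := by
    have := Subgroup.card_subgroup_dvd_card (Fx (P := P) B)
    rw [hP] at this
    norm_num
    exact this
  obtain ⟨k, hk, hk'⟩ := (Nat.dvd_prime_pow Nat.prime_two).mp h3
  rw [hk'] at h1 ⊢
  have h4 : k ≠ 4 := by
    rintro rfl
    have h5 : Fx (P := P) B = ⊤ := by
      apply Subgroup.eq_top_of_card_eq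
      rw [hk', hP]; norm_num
    apply hB
    rw [Subgroup.eq_bot_iff_forall]
    intro b hb
    apply hf
    intro x
    have : x ∈ Fx (P := P) B := by rw [h5]; trivial
    exact this b hb
  interval_cases k
  · left; rfl
  · exfalso; revert h1; decide
  · right; rfl
  · exfalso; revert h1; decide
  · exact absurd rfl h4

omit hP hf in
theorem card_sub {B : Subgroup A} (hB : B ≠ ⊥) : Nat.card B = 3 ∨ Nat.card B = 9 := by
  have h1 : Nat.card B ∣ 3 ^ 2 := by
    have := Subgroup.card_subgroup_dvd_card B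
    rw [hA] at this
    norm_num
    exact this
  obtain ⟨k, hk, hk'⟩ := (Nat.dvd_prime_pow Nat.prime_three).mp h1
  interval_cases k
  · exfalso; apply hB; rw [← Subgroup.card_eq_one, hk']; rfl
  · left; exact hk'
  · right; exact hk'

/-- there is a regular orbit -/
theorem exists_regular : ∃ u : P, u ≠ 1 ∧ MulAction.stabilizer A u = ⊥ := by
  by_contra hcon
  push Not at hcon
  have := Fintype.ofFinite A
  have := Fintype.ofFinite P
  have h1 : ∑ x ∈ (univ : Finset P).erase 1, ((univ : Finset A).erase 1 |>.filter fun a => a • x = x).card =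
      ∑ a ∈ (univ : Finset A).erase 1, ((univ : Finset P).erase 1 |>.filter fun x => a • x = x).card :=
    Finset.sum_card_bipartiteAbove_eq_sum_card_bipartiteBelow (fun x a => a • x = x)
  have h2 : ∀ x ∈ (univ : Finset P).erase 1, 2 ≤ ((univ : Finset A).erase 1 |>.filter fun a => a • x = x).card := by
    intro x hx
    have hx1 := Finset.ne_of_mem_erase hx
    have h3 := card_sub hA (hcon x hx1)
    have h4 : ((univ : Finset A).erase 1 |>.filter fun a => a • x = x) =
        (univ.filter fun a => a ∈ MulAction.stabilizer A x).erase 1 := by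
      ext a
      simp only [mem_filter, mem_erase, mem_univ, and_true, true_and, MulAction.mem_stabilizer_iff]
    have h5 : (univ.filter fun a => a ∈ MulAction.stabilizer A x).card = Nat.card (MulAction.stabilizer A x) := by
      rw [Nat.card_eq_fintype_card, Fintype.card_subtype]
    rw [h4, Finset.card_erase_of_mem (by simp), h5]
    rcases h3 with h3 | h3 <;> rw [h3] <;> norm_num
  have h3 : ∀ a ∈ (univ : Finset A).erase 1, ((univ : Finset P).erase 1 |>.filter fun x => a • x = x).card ≤ 3 := by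
    intro a ha
    have ha1 := Finset.ne_of_mem_erase ha
    have h3 := card_Fx hA hP hf (B := Subgroup.zpowers a) (by rwa [Ne, Subgroup.zpowers_eq_bot])
    have h4 : ((univ : Finset P).erase 1 |>.filter fun x => a • x = x) =
        (univ.filter fun x => x ∈ Fx (P := P) (Subgroup.zpowers a)).erase 1 := by
      ext x
      simp only [mem_filter, mem_erase, mem_univ, and_true, true_and, mem_Fx]
      refine and_congr_right fun _ => ⟨fun h b hb => ?_, fun h => h a (Subgroup.mem_zpowers a)⟩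
      have h5 : Subgroup.zpowers a ≤ MulAction.stabilizer A x := by
        rw [Subgroup.zpowers_le]; exact h
      exact h5 hb
    have h5 : (univ.filter fun x => x ∈ Fx (P := P) (Subgroup.zpowers a)).card =
        Nat.card (Fx (P := P) (Subgroup.zpowers a)) := by
      rw [Nat.card_eq_fintype_card, Fintype.card_subtype]
    rw [h4, Finset.card_erase_of_mem (by simp [mem_Fx]), h5]
    rcases h3 with h3 | h3 <;> rw [h3] <;> norm_num
  have h4 := Finset.card_nsmul_le_sum _ _ _ h2
  have h5 := Finset.sum_le_card_nsmul _ _ _ h3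
  rw [h1] at h4
  have h6 := h4.trans h5
  rw [Finset.card_erase_of_mem (mem_univ _), Finset.card_erase_of_mem (mem_univ _), Finset.card_univ,
    Finset.card_univ, ← Nat.card_eq_fintype_card, ← Nat.card_eq_fintype_card, hA, hP] at h6
  norm_num at h6

omit hP hf in
theorem ncard_orbit (x : P) : (MulAction.orbit A x).ncard * Nat.card (MulAction.stabilizer A x) = 9 := by
  rw [← MulAction.index_stabilizer, mul_comm, Subgroup.card_mul_index, hA]

omit hP hf in
theorem stab_orbit {x y : P} (h : y ∈ MulAction.orbit A x) :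
    MulAction.stabilizer A y = MulAction.stabilizer A x := by
  obtain ⟨g, rfl⟩ := h
  ext a
  simp only [MulAction.mem_stabilizer_iff]
  rw [← mul_smul, comm hA a g, mul_smul]
  exact ⟨fun h => smul_left_cancel g h, fun h => by rw [h]⟩

omit hP hf in
theorem one_notMem_orbit {x : P} (hx : x ≠ 1) : (1 : P) ∉ MulAction.orbit A x := by
  rintro ⟨a, ha⟩
  apply hx
  have ha' : a • x = 1 := ha
  have : x = a⁻¹ • (1 : P) := by rw [← ha', inv_smul_smul]
  rw [this, smul_one]

/-- all regular points are in one orbit -/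
theorem regular_unique {x y : P} (hx : x ≠ 1) (hy : y ≠ 1) (hsx : MulAction.stabilizer A x = ⊥)
    (hsy : MulAction.stabilizer A y = ⊥) : y ∈ MulAction.orbit A x := by
  by_contra hcon
  have h1 : Disjoint (MulAction.orbit A x) (MulAction.orbit A y) := by
    rw [Set.disjoint_iff]
    rintro z ⟨h1, h2⟩
    apply hcon
    rw [← MulAction.orbit_eq_iff.mpr h1]
    rw [MulAction.orbit_eq_iff.mpr h2]
    exact MulAction.mem_orbit_self y
  have h2 := Set.ncard_union_eq h1 (Set.toFinite _) (Set.toFinite _)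
  have h3 := ncard_orbit hA x
  have h4 := ncard_orbit hA y
  rw [hsx, Subgroup.card_bot, mul_one] at h3
  rw [hsy, Subgroup.card_bot, mul_one] at h4
  have h5 : MulAction.orbit A x ∪ MulAction.orbit A y ⊆ Set.univ := Set.subset_univ _
  have h6 := Set.ncard_le_ncard h5 (Set.toFinite _)
  rw [h2, h3, h4, Set.ncard_univ, hP] at h6
  omega

omit hP hf in
theorem ncard_R {u : P} (hu : u ≠ 1) (hsu : MulAction.stabilizer A u = ⊥) (hP : Nat.card P = 16)
    (hf : ∀ a : A, (∀ x : P, a • x = x) → a = 1) :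
    {x : P | x ≠ 1 ∧ MulAction.stabilizer A x ≠ ⊥}.ncard = 6 := by
  have h1 : {x : P | x ≠ 1 ∧ MulAction.stabilizer A x ≠ ⊥} = (insert 1 (MulAction.orbit A u))ᶜ := by
    ext x
    simp only [Set.mem_setOf_eq, Set.mem_compl_iff, Set.mem_insert_iff, not_or]
    refine and_congr_right fun hx => ⟨fun h h' => h ?_, fun h h' => h ?_⟩
    · rw [stab_orbit hA h', hsu]
    · exact regular_unique hA hP hf hu hx hsu h'
  have h2 := ncard_orbit hA u
  rw [hsu, Subgroup.card_bot, mul_one] at h2
  have h3 := Set.ncard_insert_of_notMem (one_notMem_orbit hA hu) (Set.toFinite (MulAction.orbit A u))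
  have h4 := Set.ncard_add_ncard_compl (insert 1 (MulAction.orbit A u)) (Set.toFinite _) (Set.toFinite _)
  rw [h1]
  rw [h3, h2, hP] at h4
  omega

theorem card_V {u : P} (hu : u ≠ 1) (hsu : MulAction.stabilizer A u ≠ ⊥) :
    Nat.card (Fx (P := P) (MulAction.stabilizer A u)) = 4 := by
  rcases card_Fx hA hP hf hsu with h | h
  · exfalso
    rw [Subgroup.card_eq_one] at h
    have : u ∈ Fx (P := P) (MulAction.stabilizer A u) := fun b hb => hb
    rw [h, Subgroup.mem_bot] at this
    exact hu this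
  · exact h

theorem V_eq {u v : P} (hu : u ≠ 1) (hsu : MulAction.stabilizer A u ≠ ⊥) (hv : v ≠ 1)
    (hvV : v ∈ Fx (P := P) (MulAction.stabilizer A u)) :
    Fx (P := P) (MulAction.stabilizer A v) = Fx (P := P) (MulAction.stabilizer A u) := by
  have h1 : MulAction.stabilizer A u ≤ MulAction.stabilizer A v := fun b hb => hvV b hb
  have h2 : MulAction.stabilizer A v ≠ ⊥ := fun h => hsu (by rw [h] at h1; exact le_bot_iff.mp h1)
  have h3 := Fx_anti (P := P) h1
  exact Subgroup.eq_of_le_of_card_ge h3 (by rw [card_V hA hP hf hu hsu, card_V hA hP hf hv h2])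

/-- the structure of the action -/
structure Str (A : Type*) {P : Type*} [Group A] [Group P] [MulDistribMulAction A P] (V W : Subgroup P) :
    Prop where
  cV : Nat.card V = 4
  inv : ∀ a : A, ∀ v ∈ V, a • v ∈ V
  tr : ∀ v ∈ V, v ≠ 1 → ∀ v' ∈ V, v' ≠ 1 → ∃ a : A, a • v = v'
  fix : ∀ v ∈ V, v ≠ 1 → ∀ a : A, a • v = v → ∀ v' ∈ V, a • v' = v'
  tr2 : ∀ v ∈ V, v ≠ 1 → ∀ w ∈ W, w ≠ 1 → ∀ w' ∈ W, w' ≠ 1 → ∃ a : A, a • v = v ∧ a • w = w'

theorem str_of {u w : P} (hu : u ≠ 1) (hsu : MulAction.stabilizer A u ≠ ⊥) (hw : w ≠ 1)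
    (hsw : MulAction.stabilizer A w ≠ ⊥) (hwV : w ∉ Fx (P := P) (MulAction.stabilizer A u)) :
    Str A (Fx (P := P) (MulAction.stabilizer A u)) (Fx (P := P) (MulAction.stabilizer A w)) ∧
      Fx (P := P) (MulAction.stabilizer A u) ⊓ Fx (P := P) (MulAction.stabilizer A w) = ⊥ := by
  set V := Fx (P := P) (MulAction.stabilizer A u) with hV
  set W := Fx (P := P) (MulAction.stabilizer A w) with hW
  have hwW : w ∈ W := fun b hb => hb
  have hcV : Nat.card V = 4 := card_V hA hP hf hu hsu
  have hcW : Nat.card W = 4 := card_V hA hP hf hw hsw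
  have hinf : V ⊓ W = ⊥ := by
    rw [Subgroup.eq_bot_iff_forall]
    rintro x ⟨hxV, hxW⟩
    by_contra hx
    have h1 := V_eq hA hP hf hu hsu hx hxV
    have h2 := V_eq hA hP hf hw hsw hx hxW
    rw [h1] at h2
    exact hwV (by rw [hV, h2]; exact hwW)
  have hne : ∀ {x : P}, x ∈ V → x ≠ 1 → x ∉ W := fun {x} hx hx1 hxW => hx1 (by
    have : x ∈ V ⊓ W := ⟨hx, hxW⟩
    rwa [hinf, Subgroup.mem_bot] at this)
  have hsv : ∀ v ∈ V, v ≠ 1 → MulAction.stabilizer A v ≠ ⊥ ∧ Fx (P := P) (MulAction.stabilizer A v) = V := by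
    intro v hv hv1
    have h1 : MulAction.stabilizer A u ≤ MulAction.stabilizer A v := fun b hb => hv b hb
    exact ⟨fun h => hsu (by rw [h] at h1; exact le_bot_iff.mp h1), V_eq hA hP hf hu hsu hv1 hv⟩
  have hcs : ∀ v ∈ V, v ≠ 1 → Nat.card (MulAction.stabilizer A v) = 3 := by
    intro v hv hv1
    obtain ⟨h1, h2⟩ := hsv v hv hv1
    rcases card_sub hA h1 with h3 | h3
    · exact h3
    · exfalso
      have h4 : MulAction.stabilizer A v = ⊤ := Subgroup.eq_top_of_card_eq _ (by rw [h3, hA])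
      have h5 : V ≤ W := by
        rw [← h2, h4]
        exact Fx_anti le_top
      exact hne hv hv1 (h5 hv)
  have hinvV : ∀ a : A, ∀ v ∈ V, a • v ∈ V := by
    intro a v hv b hb
    rw [← mul_smul, comm hA b a, mul_smul, hv b hb]
  have hinvW : ∀ a : A, ∀ v ∈ W, a • v ∈ W := by
    intro a v hv b hb
    rw [← mul_smul, comm hA b a, mul_smul, hv b hb]
  have hpunct : ∀ U : Subgroup P, Nat.card U = 4 → ((U : Set P) \ {1}).ncard = 3 := by
    intro U hU
    rw [Set.ncard_sdiff_singleton_of_mem U.one_mem]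
    have : (U : Set P).ncard = Nat.card U := rfl
    rw [this, hU]
  refine ⟨⟨hcV, hinvV, ?_, ?_, ?_⟩, hinf⟩
  · intro v hv hv1 v' hv' hv1'
    have h1 := ncard_orbit hA v
    rw [hcs v hv hv1] at h1
    have h2 : MulAction.orbit A v ⊆ (V : Set P) \ {1} := by
      rintro x ⟨a, rfl⟩
      refine ⟨hinvV a v hv, fun h => ?_⟩
      have h3 : a • v = 1 := h
      exact one_notMem_orbit hA hv1 ⟨a, h3⟩
    have h3 := Set.eq_of_subset_of_ncard_le h2 (by rw [hpunct V hcV]; omega) (Set.toFinite _)
    have h4 : v' ∈ MulAction.orbit A v := by rw [h3]; exact ⟨hv', hv1'⟩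
    exact h4
  · intro v hv hv1 a ha v' hv'
    have h1 := (hsv v hv hv1).2
    rw [← h1] at hv'
    exact hv' a ha
  · intro v hv hv1 x hx hx1 x' hx' hx1'
    set B := MulAction.stabilizer A v with hB
    have hinj : Function.Injective (fun b : B => (b : A) • x) := by
      intro b c hbc
      have h1 : ((b⁻¹ * c : B) : A) • x = x := by
        rw [Subgroup.coe_mul, mul_smul]
        have : (c : A) • x = (b : A) • x := hbc.symm
        rw [this, Subgroup.coe_inv, inv_smul_smul]
      by_contra hne'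
      have h2 : ((b⁻¹ * c : B) : A) ≠ 1 := by
        intro h
        apply hne'
        have h3 : b⁻¹ * c = 1 := Subtype.ext h
        exact (inv_mul_eq_one.mp h3)
      set d : A := ((b⁻¹ * c : B) : A) with hd
      have h3 : Subgroup.zpowers d ≤ MulAction.stabilizer A v := by
        rw [Subgroup.zpowers_le]; exact (b⁻¹ * c).2
      have h4 : Subgroup.zpowers d ≤ MulAction.stabilizer A x := by
        rw [Subgroup.zpowers_le]; exact h1
      have h5 : Subgroup.zpowers d ≠ ⊥ := by rwa [Ne, Subgroup.zpowers_eq_bot]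
      have h6 := Fx_anti (P := P) h3
      rw [(hsv v hv hv1).2] at h6
      have h7 : V = Fx (P := P) (Subgroup.zpowers d) := by
        refine Subgroup.eq_of_le_of_card_ge h6 ?_
        rcases card_Fx hA hP hf h5 with h | h <;> rw [h, hcV]
        norm_num
      have h8 : x ∈ V := by
        rw [h7]
        intro b hb
        exact h4 hb
      exact hne h8 hx1 hx
    have hr : Set.range (fun b : B => (b : A) • x) ⊆ (W : Set P) \ {1} := by
      rintro y ⟨b, rfl⟩
      refine ⟨hinvW b x hx, fun h => ?_⟩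
      have h3 : (b : A) • x = 1 := h
      exact one_notMem_orbit hA hx1 ⟨b, h3⟩
    have h1 : (Set.range (fun b : B => (b : A) • x)).ncard = 3 := by
      rw [← Set.image_univ, Set.ncard_image_of_injective _ hinj, Set.ncard_univ, hB, hcs v hv hv1]
    have h2 := Set.eq_of_subset_of_ncard_le hr (by rw [hpunct W hcW, h1]) (Set.toFinite _)
    have h3 : x' ∈ Set.range (fun b : B => (b : A) • x) := by rw [h2]; exact ⟨hx', hx1'⟩
    obtain ⟨b, hb⟩ := h3
    exact ⟨b, b.2, hb⟩

theorem exists_str : ∃ V W : Subgroup P, Str A V W ∧ Str A W V ∧ V ⊓ W = ⊥ ∧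
    (∀ x y : P, x ∉ V → x ∉ W → y ∉ V → y ∉ W → ∃ a : A, a • x = y) ∧
    (∀ x : P, x ∉ V → x ∉ W → ∀ a : A, a • x = x → a = 1) ∧ ∃ x : P, x ∉ V ∧ x ∉ W := by
  obtain ⟨u₃, hu₃, hs₃⟩ := exists_regular hA hP hf
  have hR := ncard_R hA hu₃ hs₃ hP hf
  set R := {x : P | x ≠ 1 ∧ MulAction.stabilizer A x ≠ ⊥} with hRdef
  obtain ⟨u, huR⟩ : R.Nonempty := by
    rw [← Set.ncard_pos, hR]; norm_num
  have hcV := card_V hA hP hf huR.1 huR.2
  set V := Fx (P := P) (MulAction.stabilizer A u) with hV
  have hpunct : ∀ U : Subgroup P, Nat.card U = 4 → ((U : Set P) \ {1}).ncard = 3 := by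
    intro U hU
    rw [Set.ncard_sdiff_singleton_of_mem U.one_mem]
    have : (U : Set P).ncard = Nat.card U := rfl
    rw [this, hU]
  obtain ⟨w, hwR, hwV⟩ : ∃ w ∈ R, w ∉ (V : Set P) \ {1} := by
    by_contra hcon
    push Not at hcon
    have h1 := Set.ncard_le_ncard hcon (Set.toFinite _)
    rw [hR, hpunct V hcV] at h1
    omega
  have hwV' : w ∉ V := fun h => hwV ⟨h, hwR.1⟩
  obtain ⟨h1, h2⟩ := str_of hA hP hf huR.1 huR.2 hwR.1 hwR.2 hwV'
  set W := Fx (P := P) (MulAction.stabilizer A w) with hW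
  have huV : u ∈ V := fun b hb => hb
  have huW : u ∉ W := fun h => huR.1 (by
    have : u ∈ V ⊓ W := ⟨huV, h⟩
    rwa [h2, Subgroup.mem_bot] at this)
  obtain ⟨h3, -⟩ := str_of hA hP hf hwR.1 hwR.2 huR.1 huR.2 huW
  have hsubR : ∀ {x y : P}, y ∈ R → x ∈ Fx (P := P) (MulAction.stabilizer A y) → x ≠ 1 → x ∈ R := by
    intro x y hy hx hx1
    refine ⟨hx1, fun h => hy.2 ?_⟩
    have h4 : MulAction.stabilizer A y ≤ MulAction.stabilizer A x := fun b hb => hx b hb
    rw [h] at h4
    exact le_bot_iff.mp h4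
  have hun : ((V : Set P) \ {1}) ∪ ((W : Set P) \ {1}) = R := by
    apply Set.eq_of_subset_of_ncard_le
    · rintro x (hx | hx)
      · exact hsubR huR hx.1 hx.2
      · exact hsubR hwR hx.1 hx.2
    · rw [Set.ncard_union_eq _ (Set.toFinite _) (Set.toFinite _), hpunct V hcV, hpunct W h3.cV, hR]
      rw [Set.disjoint_iff]
      rintro x ⟨hx, hx'⟩
      apply hx.2
      have : x ∈ V ⊓ W := ⟨hx.1, hx'.1⟩
      rwa [h2, Subgroup.mem_bot] at this
    · exact Set.toFinite _
  have hreg : ∀ x : P, x ∉ V → x ∉ W → x ≠ 1 ∧ MulAction.stabilizer A x = ⊥ := by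
    intro x hx hx'
    have hx1 : x ≠ 1 := fun h => hx (h ▸ V.one_mem)
    refine ⟨hx1, ?_⟩
    by_contra h
    have : x ∈ R := ⟨hx1, h⟩
    rw [← hun] at this
    rcases this with h | h
    · exact hx h.1
    · exact hx' h.1
  refine ⟨V, W, h1, h3, h2, ?_, ?_, ?_⟩
  · intro x y hx hx' hy hy'
    obtain ⟨e1, e2⟩ := hreg x hx hx'
    obtain ⟨e3, e4⟩ := hreg y hy hy'
    exact regular_unique hA hP hf e1 e3 e2 e4
  · intro x hx hx' a ha
    obtain ⟨e1, e2⟩ := hreg x hx hx'
    have : a ∈ MulAction.stabilizer A x := ha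
    rwa [e2, Subgroup.mem_bot] at this
  · refine ⟨u₃, fun h => ?_, fun h => ?_⟩
    · exact (hsubR huR h hu₃).2 hs₃
    · exact (hsubR hwR h hu₃).2 hs₃

end

end Cfsg.Agent.Lib.H52E16c
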