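import Cfsg.Agent.Lib.H16Major
import Cfsg.Agent.Lib.BlockKnorr3
import Cfsg.Agent.Lib.CliffordAb
import Cfsg.Agent.Lib.CharBasic2

/-!
# Blocks covering a stable block of a normal subgroup of `p`-power index, commutative defect group (helper16)
-/

set_option autoImplicit false
set_option linter.all false

namespace Cfsg.Agent.Lib.H16KK

open Cfsg Cfsg.Agent.Lib.BlockRing Cfsg.Agent.Lib.BlockGA Cfsg.Agent.Lib.BlockIdem Cfsg.Agent.Lib.BlockDefect
  Cfsg.Agent.Lib.BlockCover Cfsg.Agent.Lib.BlockKnorr Cfsg.Agent.Lib.BlockCount Cfsg.Agent.Lib.BlockPair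
open Cfsg.Agent.Lib.CharBasic Cfsg.Agent.Lib.Clifford Cfsg.Agent.Lib.H16Major
open scoped ComplexConjugate

universe u

variable {G : Type u} [Group G] [Fintype G] {p : ℕ} {M : Ideal AlgInt}
variable {N : Subgroup G} [hN : N.Normal] [Fintype N]

/-- norm of the restriction to a normal subgroup with abelian quotient -/
theorem classInner_res_self (hab : ∀ a b : G, a * b * a⁻¹ * b⁻¹ ∈ N) (χ : IrrCharacter G)
    (hfree : ∀ β : IrrCharacter (G ⧸ N), (∀ g : G, (β : G ⧸ N → ℂ) (g : G ⧸ N) * (χ : G → ℂ) g = (χ : G → ℂ) g) →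
      ∀ g : G, (β : G ⧸ N → ℂ) (g : G ⧸ N) = 1) :
    classInner (fun n : N => (χ : G → ℂ) n) (fun n : N => (χ : G → ℂ) n) = 1 := by
  classical
  haveI : Fintype (G ⧸ N) := Fintype.ofFinite _
  have hcomm : ∀ a b : G ⧸ N, a * b = b * a := by
    intro a b
    obtain ⟨a, rfl⟩ := QuotientGroup.mk_surjective a
    obtain ⟨b, rfl⟩ := QuotientGroup.mk_surjective b
    rw [← QuotientGroup.mk_mul, ← QuotientGroup.mk_mul, QuotientGroup.eq]
    have := hab b⁻¹ a⁻¹
    simpa [mul_assoc] using this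
  -- the double sum
  have h1 : ∑ g : G, (∑ β : IrrCharacter (G ⧸ N), (β : G ⧸ N → ℂ) (g : G ⧸ N)) *
      ((χ : G → ℂ) g * conj ((χ : G → ℂ) g)) =
      (Nat.card G : ℂ) * classInner (fun n : N => (χ : G → ℂ) n) (fun n : N => (χ : G → ℂ) n) := by
    have h2 : ∀ g : G, (∑ β : IrrCharacter (G ⧸ N), (β : G ⧸ N → ℂ) (g : G ⧸ N)) *
        ((χ : G → ℂ) g * conj ((χ : G → ℂ) g)) =
        if g ∈ N then (N.index : ℂ) * ((χ : G → ℂ) g * conj ((χ : G → ℂ) g)) else 0 := by
      intro g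
      rw [CliffordAb.sum_inflate hab]
      split_ifs
      · rfl
      · rw [zero_mul]
    rw [Finset.sum_congr rfl fun g _ => h2 g, ← Finset.sum_filter,
      Finset.sum_subtype (Finset.univ.filter (fun g : G => g ∈ N)) (p := fun g => g ∈ N) (by intro g; simp),
      ← Finset.mul_sum, classInner_def]
    have h3 : (Nat.card G : ℂ) = (N.index : ℂ) * (Nat.card N : ℂ) := by
      rw [← Nat.cast_mul, N.index_mul_card]
    have h4 : (Nat.card N : ℂ) ≠ 0 := by exact_mod_cast Nat.card_pos.ne'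
    rw [h3, mul_assoc, mul_inv_cancel_left₀ h4]
  have h2 : ∑ g : G, (∑ β : IrrCharacter (G ⧸ N), (β : G ⧸ N → ℂ) (g : G ⧸ N)) *
      ((χ : G → ℂ) g * conj ((χ : G → ℂ) g)) = (Nat.card G : ℂ) := by
    have h3 : ∀ β : IrrCharacter (G ⧸ N), ∑ g : G, (β : G ⧸ N → ℂ) (g : G ⧸ N) *
        ((χ : G → ℂ) g * conj ((χ : G → ℂ) g)) =
        if (∀ g : G, (β : G ⧸ N → ℂ) (g : G ⧸ N) = 1) then (Nat.card G : ℂ) else 0 := by
      intro β
      have hβ : IsIrrCharacter G (fun g : G => (β : G ⧸ N → ℂ) (g : G ⧸ N)) := β.2.inflate N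
      have hβ1 : (fun g : G => (β : G ⧸ N → ℂ) (g : G ⧸ N)) 1 = 1 := β.2.one_eq_one_of_comm hcomm
      have h4 := χ.2.mul_linear hβ.isCharacter hβ1
      have h5 : ∑ g : G, (β : G ⧸ N → ℂ) (g : G ⧸ N) * ((χ : G → ℂ) g * conj ((χ : G → ℂ) g)) =
          (Nat.card G : ℂ) * classInner ((χ : G → ℂ) * fun g : G => (β : G ⧸ N → ℂ) (g : G ⧸ N)) (χ : G → ℂ) := by
        have h6 : (Nat.card G : ℂ) ≠ 0 := by exact_mod_cast Nat.card_pos.ne'
        rw [classInner_def, mul_inv_cancel_left₀ h6]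
        refine Finset.sum_congr rfl fun g _ => ?_
        rw [Pi.mul_apply]; ring
      rw [h5, h4.classInner_eq χ.2]
      by_cases h6 : ∀ g : G, (β : G ⧸ N → ℂ) (g : G ⧸ N) = 1
      · rw [if_pos h6, if_pos, mul_one]
        funext g
        rw [Pi.mul_apply, h6, mul_one]
      · rw [if_neg h6, if_neg, mul_zero]
        intro h7
        apply h6
        apply hfree β
        intro g
        have := congrFun h7 g
        rw [Pi.mul_apply] at this
        rw [mul_comm]; exact this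
    simp only [Finset.sum_mul]
    rw [Finset.sum_comm, Finset.sum_congr rfl fun β _ => h3 β]
    have htriv : IsIrrCharacter (G ⧸ N) (1 : G ⧸ N → ℂ) := isIrrCharacter_one
    rw [Finset.sum_eq_single (⟨1, htriv⟩ : IrrCharacter (G ⧸ N))]
    · rw [if_pos]
      intro g; rfl
    · intro β _ hβ
      rw [if_neg]
      intro h6
      apply hβ
      apply Subtype.ext
      funext x
      obtain ⟨g, rfl⟩ := QuotientGroup.mk_surjective x
      exact h6 g
    · intro h; exact absurd (Finset.mem_univ _) h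
  rw [h1] at h2
  have h6 : (Nat.card G : ℂ) ≠ 0 := by exact_mod_cast Nat.card_pos.ne'
  have h7 : (Nat.card G : ℂ) * classInner (fun n : N => (χ : G → ℂ) n) (fun n : N => (χ : G → ℂ) n) =
      (Nat.card G : ℂ) * 1 := by rw [h2, mul_one]
  exact mul_left_cancel₀ h6 h7

section kk

theorem stable_of_stabilizes [M.IsPrime] {b : Set (IrrCharacter N)} (hb : IsPBlock M b)
    (hstab : ∀ g : G, StabilizesBlock N b g) : Stable (G := G) b := by
  intro g θ hθ ψ hψ
  have h1 := ((stabilizes_iff hb).1 (hstab g)) θ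
  have h2 : ψ = cjEquiv g θ := Subtype.ext (by rw [hψ, cjEquiv_coe])
  rw [h2]
  exact h1.1 hθ

/-- The main facts. -/
theorem restrict_irr (hM : IsPModular p M) (hidx : ∃ k : ℕ, N.index = p ^ k) {b : Set (IrrCharacter N)}
    (hb : IsPBlock M b) (hst : Stable (G := G) b) {B : Set (IrrCharacter G)} (hB : IsPBlock M B)
    (h : Covers B b) {P : Subgroup G} (hP : IsDefectGroup p M B P) (hPab : ∀ x ∈ P, ∀ y ∈ P, x * y = y * x)
    {χ : IrrCharacter G} (hχ : χ ∈ B) : ∃ θ ∈ b, ∀ n : N, (χ : G → ℂ) n = (θ : N → ℂ) n := by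
  classical
  haveI := isPrime hM
  obtain ⟨hsup, -⟩ := sup_eq_top hM hidx hb hst hB h hP
  have hmem : ∀ g : G, ∃ u ∈ P, ∃ n ∈ N, g = u * n := by
    intro g
    have h1 : g ∈ P ⊔ N := by rw [hsup]; exact Subgroup.mem_top g
    obtain ⟨u, hu, n, hn, h2⟩ := Subgroup.mem_sup_of_normal_right.1 h1
    exact ⟨u, hu, n, hn, h2.symm⟩
  have hab : ∀ x y : G, x * y * x⁻¹ * y⁻¹ ∈ N := by
    intro x y
    obtain ⟨u, hu, n, hn, rfl⟩ := hmem x
    obtain ⟨v, hv, m, hm, rfl⟩ := hmem y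
    rw [← QuotientGroup.eq_one_iff]
    have h1 : ((n : G) : G ⧸ N) = 1 := (QuotientGroup.eq_one_iff n).2 hn
    have h2 : ((m : G) : G ⧸ N) = 1 := (QuotientGroup.eq_one_iff m).2 hm
    have h3 : ((u * v : G) : G ⧸ N) = ((v * u : G) : G ⧸ N) := by rw [hPab u hu v hv]
    simp only [QuotientGroup.mk_mul, QuotientGroup.mk_inv, h1, h2, mul_one] at h3 ⊢
    rw [h3]; group
  have hcomm : ∀ a b : G ⧸ N, a * b = b * a := by
    intro a b
    obtain ⟨a, rfl⟩ := QuotientGroup.mk_surjective a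
    obtain ⟨b, rfl⟩ := QuotientGroup.mk_surjective b
    rw [← QuotientGroup.mk_mul, ← QuotientGroup.mk_mul, QuotientGroup.eq]
    have := hab b⁻¹ a⁻¹
    simpa [mul_assoc] using this
  obtain ⟨k, hk⟩ := hidx
  have hnorm := classInner_res_self hab χ (by
    intro β hβ g
    obtain ⟨u, hu, n, hn, rfl⟩ := hmem g
    have hn1 : ((n : G) : G ⧸ N) = 1 := (QuotientGroup.eq_one_iff n).2 hn
    rw [QuotientGroup.mk_mul, hn1, mul_one]
    obtain ⟨y, hy1, hy2, hy3⟩ := exists_ne_zero_central hM hB hP hu (fun d hd => hPab u hu d hd) hχ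
    have h1 := hβ (u * y)
    have hyN : y ∈ N := Cfsg.Agent.Lib.BlockCore.mem_of_regular hM.1 hk hy2
    have hy4 : ((y : G) : G ⧸ N) = 1 := (QuotientGroup.eq_one_iff y).2 hyN
    rw [QuotientGroup.mk_mul, hy4, mul_one] at h1
    exact mul_right_cancel₀ hy3 (by rw [h1, one_mul]))
  have hirr : IsIrrCharacter N (fun n : N => (χ : G → ℂ) n) := (χ.2.isCharacter.restrict N).isIrr_of_norm_one hnorm
  refine ⟨⟨_, hirr⟩, ?_, fun n => rfl⟩
  have h1 := mem_orbitSet_of_covers hB (unionOfBlocks_of_isPBlock hb) h hχ (ψ := ⟨_, hirr⟩) (by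
    rw [show ((⟨_, hirr⟩ : IrrCharacter N) : N → ℂ) = fun n : N => (χ : G → ℂ) n from rfl, hnorm]
    exact one_ne_zero)
  rwa [orbitSet_eq_of_stable hst] at h1

/-- counting the extensions -/
theorem card_ext (hM : IsPModular p M) (hidx : ∃ k : ℕ, N.index = p ^ k) {b : Set (IrrCharacter N)}
    (hb : IsPBlock M b) (hst : Stable (G := G) b) {B : Set (IrrCharacter G)} (hB : IsPBlock M B)
    (h : Covers B b) {P : Subgroup G} (hP : IsDefectGroup p M B P) (hPab : ∀ x ∈ P, ∀ y ∈ P, x * y = y * x)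
    {θ : IrrCharacter N} (hθ : θ ∈ b) :
    Nat.card {χ : IrrCharacter G // χ ∈ B ∧ ∀ n : N, (χ : G → ℂ) n = (θ : N → ℂ) n} = N.index := by
  classical
  haveI := isPrime hM
  -- characters over `θ` lie in `B` and restrict to `θ`
  have hover : ∀ χ : IrrCharacter G, classInner (fun n : N => (χ : G → ℂ) n) (θ : N → ℂ) ≠ 0 →
      χ ∈ B ∧ ∀ n : N, (χ : G → ℂ) n = (θ : N → ℂ) n := by
    intro χ h1
    have h2 := covers_unique hM hidx hb hB (isPBlock_blockOf χ) h ⟨χ, mem_blockOf_self χ, θ, hθ, h1⟩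
    have hχ : χ ∈ B := by rw [h2]; exact mem_blockOf_self χ
    refine ⟨hχ, ?_⟩
    obtain ⟨θ', hθ', h3⟩ := restrict_irr hM hidx hb hst hB h hP hPab hχ
    have h4 : (fun n : N => (χ : G → ℂ) n) = (θ' : N → ℂ) := funext h3
    rw [h4, θ'.2.classInner_eq θ.2] at h1
    have h5 : (θ' : N → ℂ) = (θ : N → ℂ) := by
      by_contra h6
      rw [if_neg h6] at h1
      exact h1 rfl
    intro n
    rw [h3, h5]
  obtain ⟨χ₀, hχ₀⟩ := exists_above (G := G) θ
  have hinv : ∀ g : G, cj N g (θ : N → ℂ) = θ := by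
    intro g
    have h1 : (θ : N → ℂ) = fun n : N => (χ₀ : G → ℂ) n := funext fun n => ((hover χ₀ hχ₀).2 n).symm
    rw [h1]
    exact cj_res χ₀.2.isClassFunction g
  have hsum := CliffordCorr.sum_sq_mult (G := G) θ.2 hinv
  have h1 : ∀ χ : IrrCharacter G, classInner (indFun N (θ : N → ℂ)) (χ : G → ℂ) *
      conj (classInner (indFun N (θ : N → ℂ)) (χ : G → ℂ)) =
      if (χ ∈ B ∧ ∀ n : N, (χ : G → ℂ) n = (θ : N → ℂ) n) then 1 else 0 := by
    intro χ
    rw [IndFun.frobenius_reciprocity N _ _ χ.2.isClassFunction]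
    by_cases h2 : classInner (fun n : N => (χ : G → ℂ) n) (θ : N → ℂ) = 0
    · rw [← CharBasic.conj_classInner, h2, if_neg]
      · simp
      · rintro ⟨-, h3⟩
        have h4 : (fun n : N => (χ : G → ℂ) n) = (θ : N → ℂ) := funext h3
        rw [h4, θ.2.classInner_self] at h2
        exact one_ne_zero h2
    · have h3 := hover χ h2
      have h4 : (fun n : N => (χ : G → ℂ) n) = (θ : N → ℂ) := funext h3.2
      rw [if_pos h3, h4, θ.2.classInner_self]
      simp
  rw [Finset.sum_congr rfl fun χ _ => h1 χ] at hsum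
  rw [Nat.card_eq_fintype_card, Fintype.card_subtype, Finset.card_eq_sum_ones, Finset.sum_filter]
  have h2 : ((∑ χ : IrrCharacter G, if (χ ∈ B ∧ ∀ n : N, (χ : G → ℂ) n = (θ : N → ℂ) n) then 1 else 0 : ℕ) : ℂ) =
      (N.index : ℂ) := by
    rw [← hsum]
    push_cast
    rfl
  exact_mod_cast h2

theorem card_block (hM : IsPModular p M) (hidx : ∃ k : ℕ, N.index = p ^ k) {b : Set (IrrCharacter N)}
    (hb : IsPBlock M b) (hst : Stable (G := G) b) {B : Set (IrrCharacter G)} (hB : IsPBlock M B)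
    (h : Covers B b) {P : Subgroup G} (hP : IsDefectGroup p M B P) (hPab : ∀ x ∈ P, ∀ y ∈ P, x * y = y * x) :
    Nat.card B = N.index * Nat.card b := by
  classical
  choose f hf1 hf2 using fun χ : B => restrict_irr hM hidx hb hst hB h hP hPab χ.2
  have e : B ≃ Σ θ : b, {χ : IrrCharacter G // χ ∈ B ∧ ∀ n : N, (χ : G → ℂ) n = ((θ : IrrCharacter N) : N → ℂ) n} :=
    { toFun := fun χ => ⟨⟨f χ, hf1 χ⟩, ⟨χ.1, χ.2, hf2 χ⟩⟩
      invFun := fun x => ⟨x.2.1, x.2.2.1⟩
      left_inv := fun χ => rfl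
      right_inv := by
        rintro ⟨⟨θ, hθ⟩, ⟨χ, hχ, hχθ⟩⟩
        have h1 : f ⟨χ, hχ⟩ = θ := by
          apply Subtype.ext
          funext n
          rw [← hf2 ⟨χ, hχ⟩ n]
          exact hχθ n
        subst h1
        rfl }
  haveI := Fintype.ofFinite b
  rw [Nat.card_congr e, Nat.card_sigma, Finset.sum_congr rfl fun θ _ =>
    card_ext hM hidx hb hst hB h hP hPab θ.2, Finset.sum_const, Finset.card_univ, Nat.card_eq_fintype_card,
    smul_eq_mul, mul_comm]

/-- the rank -/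
theorem rank_eq (hM : IsPModular p M) (hidx : ∃ k : ℕ, N.index = p ^ k) {b : Set (IrrCharacter N)}
    (hb : IsPBlock M b) (hst : Stable (G := G) b) {B : Set (IrrCharacter G)} (hB : IsPBlock M B)
    (h : Covers B b) {P : Subgroup G} (hP : IsDefectGroup p M B P) (hPab : ∀ x ∈ P, ∀ y ∈ P, x * y = y * x) :
    blockRank p B = blockRank p b := by
  classical
  haveI := isPrime hM
  obtain ⟨k, hk⟩ := hidx
  rw [blockRank_eq, blockRank_eq]
  let R : (G → ℂ) →ₗ[ℂ] (N → ℂ) := { toFun := fun f n => f n, map_add' := fun _ _ => rfl, map_smul' := fun _ _ => rfl }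
  have hR : ∀ χ : IrrCharacter G, R (preg p (χ : G → ℂ)) = preg p (fun n : N => (χ : G → ℂ) n) := by
    intro χ
    funext n
    show preg p (χ : G → ℂ) (n : G) = preg p (fun n : N => (χ : G → ℂ) n) n
    unfold preg
    rw [Subgroup.orderOf_coe]
  have hinj : Function.Injective (R.domRestrict (rsp p B)) := by
    rw [← LinearMap.ker_eq_bot, LinearMap.ker_eq_bot']
    rintro ⟨v, hv⟩ h1
    apply Subtype.ext
    funext g
    have h2 : ∀ n : N, v n = 0 := fun n => congrFun h1 n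
    by_cases hg : p ∣ orderOf g
    · -- members of the span vanish at `p`-singular elements
      have h3 : ∀ w ∈ rsp p B, w g = 0 := by
        intro w hw
        induction hw using Submodule.span_induction with
        | mem x hx =>
          obtain ⟨χ, -, rfl⟩ := hx
          show preg p (χ : G → ℂ) g = 0
          unfold preg
          rw [if_pos hg]
        | zero => rfl
        | add x y _ _ hx hy => rw [Pi.add_apply, hx, hy, add_zero]
        | smul a x _ hx => rw [Pi.smul_apply, hx, smul_zero]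
      exact h3 v hv
    · exact h2 ⟨g, Cfsg.Agent.Lib.BlockCore.mem_of_regular hM.1 hk hg⟩
  have hrange : LinearMap.range (R.domRestrict (rsp p B)) = rsp p b := by
    rw [LinearMap.range_domRestrict, rsp, Submodule.map_span]
    congr 1
    ext f
    constructor
    · rintro ⟨_, ⟨χ, hχ, rfl⟩, rfl⟩
      obtain ⟨θ, hθ, h1⟩ := restrict_irr hM ⟨k, hk⟩ hb hst hB h hP hPab hχ
      refine ⟨θ, hθ, ?_⟩
      simp only
      rw [hR]
      congr 1
      exact (funext h1).symm
    · rintro ⟨θ, hθ, rfl⟩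
      obtain ⟨χ, hχ⟩ := exists_above (G := G) θ
      have h2 := covers_unique hM ⟨k, hk⟩ hb hB (isPBlock_blockOf χ) h ⟨χ, mem_blockOf_self χ, θ, hθ, hχ⟩
      have hχB : χ ∈ B := by rw [h2]; exact mem_blockOf_self χ
      obtain ⟨θ', hθ', h3⟩ := restrict_irr hM ⟨k, hk⟩ hb hst hB h hP hPab hχB
      have h4 : (fun n : N => (χ : G → ℂ) n) = (θ' : N → ℂ) := funext h3
      refine ⟨preg p (χ : G → ℂ), ⟨χ, hχB, rfl⟩, ?_⟩
      simp only
      rw [hR, h4]
      rw [h4, θ'.2.classInner_eq θ.2] at hχ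
      have h5 : (θ' : N → ℂ) = (θ : N → ℂ) := by
        by_contra h6
        rw [if_neg h6] at hχ
        exact hχ rfl
      rw [h5]
  rw [← hrange, LinearMap.finrank_range_of_inj hinj]

end kk

end Cfsg.Agent.Lib.H16KK
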