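import Mathlib
import Cfsg.Agent.Lib.H52E16b
import Cfsg.Agent.Lib.H52E16c
import Cfsg.Agent.Lib.BlockTop
import Cfsg.Agent.S4640
import Cfsg.Agent.S4652
import Cfsg.Agent.S4512

/-!
# Local ranks (helper52)
-/

set_option autoImplicit false

open Subgroup
open scoped commutatorElement

namespace Cfsg.Agent.Lib.H52E16d

open Cfsg Cfsg.Agent.Lib.BlockRing Cfsg.Agent.Lib.BlockThird
open Cfsg.Agent.Lib.Subsec (Cz mem_Cz)

universe u

variable {G : Type u} [Group G] [Finite G] {M : Ideal AlgInt}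

/-- `C(x)` has a normal complement -/
theorem complement {p : ℕ} [Fact p.Prime] (P : Sylow p G) (hab : ∀ a ∈ (P : Subgroup G), ∀ b ∈ (P : Subgroup G), a * b = b * a)
    {x : G} (hx : x ∈ (P : Subgroup G))
    (h : ∀ n ∈ normalizer ((P : Subgroup G) : Set G), n * x * n⁻¹ = x → ∀ y ∈ (P : Subgroup G), n * y * n⁻¹ = y) :
    ∃ N : Subgroup (Cz x), N.Normal ∧ ¬ p ∣ Nat.card N ∧ N.index = Nat.card P := by
  have hPH : (P : Subgroup G) ≤ Cz x := fun y hy => by
    rw [mem_Cz]; exact hab x hx y hy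
  set H := Cz x with hH
  have hle : Subgroup.normalizer ((P.subtype hPH : Subgroup H) : Set H) ≤
      Subgroup.centralizer ((P.subtype hPH : Subgroup H) : Set H) := by
    intro y hy
    have hyN : (y : G) ∈ Subgroup.normalizer ((P : Subgroup G) : Set G) := by
      rw [Subgroup.mem_normalizer_iff] at hy ⊢
      intro g
      constructor
      · intro hg
        have := (hy ⟨g, hPH hg⟩).1 (by rw [Sylow.coe_subtype]; exact Subgroup.mem_subgroupOf.2 hg)
        rw [Sylow.coe_subtype] at this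
        exact Subgroup.mem_subgroupOf.1 this
      · intro hg
        have hgH : g ∈ H := by
          have : g = (y : G)⁻¹ * (y * g * (y : G)⁻¹) * y := by group
          rw [this]
          exact H.mul_mem (H.mul_mem (H.inv_mem y.2) (hPH hg)) y.2
        have := (hy ⟨g, hgH⟩).2 (by rw [Sylow.coe_subtype]; exact Subgroup.mem_subgroupOf.2 hg)
        rw [Sylow.coe_subtype] at this
        exact Subgroup.mem_subgroupOf.1 this
    have hyx : (y : G) * x * (y : G)⁻¹ = x := by
      have h1 := mem_Cz.mp y.2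
      rw [← h1.eq, mul_inv_cancel_right]
    rw [Subgroup.mem_centralizer_iff]
    intro g hg
    have hg' : (g : G) ∈ (P : Subgroup G) := by
      have : g ∈ ((P.subtype hPH : Sylow p H) : Subgroup H) := hg
      rw [Sylow.coe_subtype] at this
      exact Subgroup.mem_subgroupOf.1 this
    have h2 := h _ hyN hyx _ hg'
    apply Subtype.ext
    show (g : G) * y = y * g
    conv_lhs => rw [← h2]
    group
  refine ⟨(MonoidHom.transferSylow (P.subtype hPH) hle).ker, inferInstance,
    MonoidHom.not_dvd_card_ker_transferSylow (P.subtype hPH) hle, ?_⟩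
  rw [(MonoidHom.ker_transferSylow_isComplement' (P.subtype hPH) hle).symm.index_eq_card]
  rw [Sylow.coe_subtype]
  exact Nat.card_congr (Subgroup.subgroupOfEquivOfLe hPH).toEquiv

theorem stab_principal (hM : IsPModular 2 M) (K : Subgroup G) [K.Normal] (g : G) :
    StabilizesBlock K (principalBlock M K) g := by
  haveI := isPrime hM
  refine ⟨?_, ?_⟩
  · have : normalizer (K : Set G) = ⊤ := Subgroup.normalizer_eq_top K
    rw [this]; trivial
  · intro χ hχ
    set e : K ≃* K := MulAut.conjNormal g⁻¹ with he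
    refine ⟨BlockTop.cmp e χ, ?_, ?_⟩
    · have h1 := BlockTop.image_blockOf (M := M) e (triv K)
      have h2 : BlockTop.cmp e (triv K) = triv K := by
        apply Subtype.ext
        rfl
      rw [h2, ← principalBlock_eq] at h1
      rw [← h1]
      exact ⟨χ, hχ, rfl⟩
    · intro k k' hk
      show (BlockTop.cmp e χ : K → ℂ) k' = _
      have h3 : e k' = k := by
        apply Subtype.ext
        rw [he, MulAut.conjNormal_apply, hk]
        group
      rw [BlockTop.cmp_apply, h3]

theorem decompose {P V W : Subgroup G} (hVP : V ≤ P) (hWP : W ≤ P) (hcV : Nat.card V = 4)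
    (hcW : Nat.card W = 4) (hcP : Nat.card P = 16) (hinf : V ⊓ W = ⊥) :
    ∀ x ∈ P, ∃ v ∈ V, ∃ w ∈ W, x = v * w := by
  have hinj : Function.Injective (fun q : V × W => (⟨(q.1 : G) * (q.2 : G),
      mul_mem (hVP q.1.2) (hWP q.2.2)⟩ : P)) := by
    rintro ⟨v, w⟩ ⟨v', w'⟩ h
    have h1 : (v : G) * w = v' * w' := congrArg Subtype.val h
    have h2 : (v' : G)⁻¹ * v = w' * (w : G)⁻¹ := by
      rw [inv_mul_eq_iff_eq_mul, ← mul_assoc, ← h1, mul_inv_cancel_right]
    have h3 : (v' : G)⁻¹ * v ∈ V ⊓ W :=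
      ⟨V.mul_mem (V.inv_mem v'.2) v.2, by rw [h2]; exact W.mul_mem w'.2 (W.inv_mem w.2)⟩
    have h4 := h3
    rw [hinf, mem_bot] at h3
    rw [h2, hinf, mem_bot] at h4
    have e1 : v = v' := Subtype.ext (inv_mul_eq_one.mp h3).symm
    have e2 : w = w' := Subtype.ext (mul_inv_eq_one.mp h4).symm
    rw [e1, e2]
  have hbij := (Nat.bijective_iff_injective_and_card _).mpr ⟨hinj, by rw [Nat.card_prod, hcV, hcW, hcP]⟩
  intro x hx
  obtain ⟨⟨v, w⟩, hvw⟩ := hbij.2 ⟨x, hx⟩
  exact ⟨v, v.2, w, w.2, (congrArg Subtype.val hvw).symm⟩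

/-- the rank of the principal block when `N(P)` fixes `V` pointwise and is transitive on `W#`,
`P = V × W` elementary abelian of order 16 -/
theorem rank_three (hM : IsPModular 2 M) (P : Sylow 2 G) (hel : ∀ x ∈ (P : Subgroup G), x * x = 1)
    {V W : Subgroup G} (hVP : V ≤ P) (hWP : W ≤ P) (hcV : Nat.card V = 4) (hcW : Nat.card W = 4)
    (hcP : Nat.card P = 16) (hinf : V ⊓ W = ⊥)
    (hV : ∀ n ∈ normalizer ((P : Subgroup G) : Set G), ∀ v ∈ V, n * v * n⁻¹ = v)
    (hW : ∀ n ∈ normalizer ((P : Subgroup G) : Set G), ∀ w ∈ W, n * w * n⁻¹ ∈ W)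
    (htr : ∀ w ∈ W, w ≠ 1 → ∀ w' ∈ W, w' ≠ 1 → ∃ n ∈ normalizer ((P : Subgroup G) : Set G), n * w * n⁻¹ = w') :
    blockRank 2 (principalBlock M G) = 3 := by
  haveI : Fact (Nat.Prime 2) := ⟨Nat.prime_two⟩
  haveI := isPrime hM
  have := Fintype.ofFinite G
  have hinv : ∀ x ∈ (P : Subgroup G), x⁻¹ = x := fun x hx => inv_eq_of_mul_eq_one_left (hel x hx)
  have hab : ∀ a ∈ (P : Subgroup G), ∀ b ∈ (P : Subgroup G), a * b = b * a := by
    intro a ha b hb
    have h1 := hinv _ (mul_mem ha hb)
    rw [mul_inv_rev, hinv a ha, hinv b hb] at h1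
    exact h1.symm
  haveI hcm : IsMulCommutative (P : Subgroup G) := ⟨⟨fun a b => Subtype.ext (hab a a.2 b b.2)⟩⟩
  have hdec := decompose hVP hWP hcV hcW hcP hinf
  -- the focal subgroup is `W`
  have hfoc : focalSubgroup (P : Subgroup G) = W := by
    apply le_antisymm
    · rw [focalSubgroup_def, closure_le]
      rintro g ⟨hg, x, hx, u, rfl⟩
      have h1 : ⁅x, u⁆ = x * (u * x⁻¹ * u⁻¹) := by rw [commutatorElement_def]; group
      rw [h1] at hg ⊢
      have h2 : u * x⁻¹ * u⁻¹ ∈ (P : Subgroup G) := by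
        have := mul_mem (inv_mem hx) hg
        rwa [inv_mul_cancel_left] at this
      obtain ⟨n, hn, hn'⟩ := P.conj_eq_normalizer_conj_of_mem x⁻¹ u⁻¹ (inv_mem hx)
        (by rw [inv_inv]; exact h2)
      rw [inv_inv] at hn'
      rw [hn']
      obtain ⟨v, hv, w, hw, hvw⟩ := hdec x⁻¹ (inv_mem hx)
      have hn2 : n⁻¹ ∈ normalizer ((P : Subgroup G) : Set G) := inv_mem hn
      have h3 := hV _ hn2 v hv
      have h4 := hW _ hn2 w hw
      rw [inv_inv] at h3 h4
      have h5 : x = v * w := by rw [← hvw, hinv x hx]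
      have h6 : x * (n⁻¹ * x⁻¹ * n) = w * (n⁻¹ * w * n) := by
        have e1 : n⁻¹ * x⁻¹ * n = v * (n⁻¹ * w * n) := by
          calc n⁻¹ * x⁻¹ * n = (n⁻¹ * v * n) * (n⁻¹ * w * n) := by rw [hvw]; group
            _ = _ := by rw [h3]
        rw [e1, h5, hab v (hVP hv) w (hWP hw), mul_assoc, ← mul_assoc v v, hel v (hVP hv), one_mul]
      rw [SetLike.mem_coe, h6]
      exact mul_mem hw h4
    · intro w hw
      by_cases hw1 : w = 1
      · rw [hw1]; exact one_mem _
      obtain ⟨w1, hw1W, hw11, hw1w⟩ : ∃ w1 ∈ W, w1 ≠ 1 ∧ w1 ≠ w := by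
        by_contra hcon
        push Not at hcon
        have h1 : (W : Set G) ⊆ {1, w} := by
          intro y hy
          by_cases hy1 : y = 1
          · left; exact hy1
          · right; exact hcon y hy hy1
        have h2 := Set.ncard_le_ncard h1 (Set.toFinite _)
        have h3 : (W : Set G).ncard = 4 := hcW
        have h4 := Set.ncard_pair (a := (1 : G)) (b := w) (fun h => hw1 h.symm)
        omega
      have hP1 := hWP hw1W
      have hPw := hWP hw
      have h5 : w1 * w ≠ 1 := fun h => hw1w (by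
        have := mul_eq_one_iff_eq_inv.mp h
        rw [this, hinv w hPw])
      obtain ⟨n, hn, hn'⟩ := htr w1 hw1W hw11 (w1 * w) (mul_mem hw1W hw) h5
      rw [focalSubgroup_def]
      apply Subgroup.subset_closure
      refine ⟨hPw, w1, hP1, n, ?_⟩
      have h6 : ⁅w1, n⁆ = w1 * (n * w1 * n⁻¹)⁻¹ := by rw [commutatorElement_def]; group
      rw [h6, hn', mul_inv_rev, hinv w hPw, hinv w1 hP1, ← mul_assoc, hab w1 hP1 w hPw, mul_assoc,
        hel w1 hP1, mul_one]
  set N := (transferFocal (P : Subgroup G)).ker with hN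
  have hNP : N ⊓ (P : Subgroup G) = W := by
    rw [hN, ker_transferFocal_inf_eq_focalSubgroup, hfoc]
  have hWN : W ≤ N := by rw [← hNP]; exact inf_le_left
  have hidx : N.index = 4 := by
    have h1 : N.index = Nat.card ((P : Subgroup G) ⧸ (P : Subgroup G).focalSubgroupOf) := by
      rw [Subgroup.index_eq_card]
      exact Nat.card_congr (transferFocal.quotientKerMulEquivQuotientFocalSubroupOf P).toEquiv
    rw [h1, ← Subgroup.index_eq_card, focalSubgroupOf_def, hfoc]
    have h2 := (W.subgroupOf (P : Subgroup G)).card_mul_index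
    have h3 : Nat.card (W.subgroupOf (P : Subgroup G)) = 4 := by
      rw [← hcW]; exact Nat.card_congr (Subgroup.subgroupOfEquivOfLe hWP).toEquiv
    have h4 : Nat.card (P : Subgroup G) = 16 := hcP
    rw [h3, h4] at h2
    omega
  have := Fintype.ofFinite N
  have hcov := S4640.result 2 M hM N ⟨2, by rw [hidx]; norm_num⟩ (principalBlock M N)
    isPBlock_principal (fun g => stab_principal hM N g) (principalBlock M G) isPBlock_principal
    ⟨triv G, triv_mem, triv N, triv_mem, by
      have : (fun n : N => (triv G : G → ℂ) n) = (triv N : N → ℂ) := rfl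
      rw [this, CharBasic.irr_orthonormal, if_pos rfl]
      exact one_ne_zero⟩ (P : Subgroup G) ((S4652.result 2 M hM _).mpr ⟨P, rfl⟩) hab
  rw [hcov.2.2.2.2.2]
  -- Sylow subgroup of `N`
  have hcardG : ∃ m, Odd m ∧ Nat.card G = 16 * m := by
    refine ⟨(P : Subgroup G).index, ?_, ?_⟩
    · rw [← Nat.not_even_iff_odd, even_iff_two_dvd]; exact P.not_dvd_index
    · have := (P : Subgroup G).card_mul_index
      have h4 : Nat.card (P : Subgroup G) = 16 := hcP
      rw [h4] at this
      exact this.symm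
  obtain ⟨m, hm, hGm⟩ := hcardG
  have hcN : Nat.card N = 4 * m := by
    have := N.card_mul_index
    rw [hidx, hGm] at this
    omega
  have hcQ : Nat.card (W.subgroupOf N) = 4 := by
    rw [← hcW]; exact Nat.card_congr (Subgroup.subgroupOfEquivOfLe hWN).toEquiv
  have hfac : (Nat.card N).factorization 2 = 2 := by
    rw [hcN, Nat.factorization_mul (by norm_num) (by rintro rfl; exact absurd hm (by decide))]
    have h1 : (4 : ℕ) = 2 ^ 2 := by norm_num
    have h2 : m.factorization 2 = 0 := Nat.factorization_eq_zero_of_not_dvd (by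
      rw [← even_iff_two_dvd, Nat.not_even_iff_odd]; exact hm)
    rw [Finsupp.add_apply, h2, h1, Nat.Prime.factorization_pow Nat.prime_two]
    simp
  let Q : Sylow 2 N := Sylow.ofCard (W.subgroupOf N) (by rw [hcQ, hfac]; norm_num)
  have hQ : (Q : Subgroup N) = W.subgroupOf N := Sylow.coe_ofCard _ _
  refine S4512.result M hM Q ?_ ?_ ?_
  · rw [← hcQ, ← hQ]
  · rintro ⟨x, hx⟩
    have hx' : x ∈ (Q : Subgroup N) := hx
    rw [hQ, mem_subgroupOf] at hx'
    apply Subtype.ext
    apply Subtype.ext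
    exact hel _ (hWP hx')
  · -- one class of involutions
    have key : ∀ s : N, orderOf s = 2 → ∃ w : N, (w : G) ∈ W ∧ w ≠ 1 ∧ IsConj s w := by
      intro s hs
      have hgp : IsPGroup 2 (Subgroup.zpowers s) := by
        apply IsPGroup.of_card (n := 1)
        rw [Nat.card_zpowers, hs]; norm_num
      obtain ⟨R, hR⟩ := hgp.exists_le_sylow
      obtain ⟨c, hc⟩ := MulAction.exists_smul_eq N R Q
      have hcg : c * s * c⁻¹ ∈ (Q : Subgroup N) := by
        rw [← hc, Sylow.coe_subgroup_smul, Subgroup.mem_pointwise_smul_iff_inv_smul_mem]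
        simp only [← map_inv, MulAut.smul_def, MulAut.conj_apply, inv_inv]
        have h1 : c⁻¹ * (c * s * c⁻¹) * c = s := by group
        rw [h1]
        exact hR (Subgroup.mem_zpowers s)
      refine ⟨c * s * c⁻¹, ?_, ?_, isConj_iff.mpr ⟨c, rfl⟩⟩
      · rw [hQ, mem_subgroupOf] at hcg
        exact hcg
      · intro h
        have h1 : s = 1 := by
          have := congrArg (fun z => c⁻¹ * z * c) h
          simpa [mul_assoc] using this
        rw [h1, orderOf_one] at hs
        omega
    intro s t hs ht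
    obtain ⟨w, hw, hw1, hsw⟩ := key s hs
    obtain ⟨w', hw', hw1', htw⟩ := key t ht
    refine hsw.trans (IsConj.trans ?_ htw.symm)
    obtain ⟨n, hn, hn'⟩ := htr w hw (fun h => hw1 (Subtype.ext h)) w' hw' (fun h => hw1' (Subtype.ext h))
    obtain ⟨y, hy⟩ := focalSubgroupOf.pow_index_surjective P (transferFocal (P : Subgroup G) n)
    obtain ⟨y, rfl⟩ := QuotientGroup.mk'_surjective _ y
    have hy2 : transferFocal (P : Subgroup G) y = transferFocal (P : Subgroup G) n := by
      rw [transferFocal_eq_pow]; exact hy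
    have h3 : n * (y : G)⁻¹ ∈ N := by
      rw [hN, MonoidHom.mem_ker, map_mul, map_inv, hy2, mul_inv_cancel]
    refine isConj_iff.mpr ⟨⟨n * (y : G)⁻¹, h3⟩, ?_⟩
    apply Subtype.ext
    show n * (y : G)⁻¹ * (w : G) * (n * (y : G)⁻¹)⁻¹ = w'
    have h4 : (y : G)⁻¹ * (w : G) = (w : G) * (y : G)⁻¹ := hab _ (inv_mem y.2) _ (hWP hw)
    rw [mul_assoc n, h4, ← hn']
    group

end Cfsg.Agent.Lib.H52E16d
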