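import Mathlib
import Cfsg.Agent.Lib.H52E16d
import Cfsg.Agent.Lib.BlockCentral

/-!
# The indicator of a strongly closed subgroup of an abelian Sylow subgroup (helper52)
-/

set_option autoImplicit false

open Subgroup

namespace Cfsg.Agent.Lib.H52E16e

open Cfsg Cfsg.Agent.Lib.BlockRing Cfsg.Agent.Lib.BlockThird Cfsg.Agent.Lib.PPart
open Cfsg.Agent.Lib.H25BpF (pp pq pp_eq pp_conj pp_order pp_comm pq_order pp_mul_pq)
open Cfsg.Agent.Lib.H52E16b
open scoped ComplexConjugate Classical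

universe u

variable {G : Type u} [Group G] [Finite G] {M : Ideal AlgInt} {p : ℕ}

theorem isCharacter_reg (Q : Type u) [Group Q] [Finite Q] :
    IsCharacter Q (fun q => if q = 1 then (Nat.card Q : ℂ) else 0) := by
  have := Fintype.ofFinite Q
  refine CharBasic.isCharacter_of_classInner ?_ fun χ hχ => ?_
  · intro g h
    have : h * g * h⁻¹ = 1 ↔ g = 1 := by
      constructor
      · intro e
        have := congrArg (fun z => h⁻¹ * z * h) e
        simpa [mul_assoc] using this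
      · rintro rfl; group
    simp only [this]
  · refine ⟨charDegree χ, ?_⟩
    rw [CharBasic.classInner_def]
    have h1 : ∀ g : Q, (if g = 1 then (Nat.card Q : ℂ) else 0) * conj (χ g) =
        if g = 1 then (Nat.card Q : ℂ) * conj (χ 1) else 0 := by
      intro g
      split_ifs with h
      · rw [h]
      · rw [zero_mul]
    have h2 := BlockDeg.charDegree_cast_irr (⟨χ, hχ⟩ : IrrCharacter Q)
    have h2' : (charDegree χ : ℂ) = χ 1 := h2
    rw [Finset.sum_congr rfl fun g _ => h1 g, Finset.sum_ite_eq', if_pos (Finset.mem_univ _),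
      inv_mul_cancel_left₀ (by exact_mod_cast Nat.card_pos.ne'), ← h2', Complex.conj_natCast]

/-- `|P : U|` off the sections of `U`, zero on them -/
noncomputable def FU (p : ℕ) [Fact p.Prime] (P U : Subgroup G) (g : G) : ℂ :=
  if ∃ y ∈ U, IsConj (pp p g) y then 0 else ((U.relIndex P : ℕ) : ℂ)

theorem sec_of_pp [Fact p.Prime] {F : G → ℂ} {f : G → ℂ} (hF : ∀ g, F g = f (pp p g))
    (hf : ∀ u v, IsConj u v → f u = f v) : Sec p F := by
  intro g h u v ⟨y, hy, hc, ho, hr⟩ ⟨y', hy', hc', ho', hr'⟩ huv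
  rw [hF, hF, (pp_eq hy hc ho hr).1, (pp_eq hy' hc' ho' hr').1]
  exact hf u v huv

theorem sec_FU [Fact p.Prime] (P U : Subgroup G) : Sec p (FU p P U) := by
  refine sec_of_pp (f := fun u => if ∃ y ∈ U, IsConj u y then 0 else ((U.relIndex P : ℕ) : ℂ))
    (fun g => rfl) fun u v huv => ?_
  have : (∃ y ∈ U, IsConj u y) ↔ ∃ y ∈ U, IsConj v y :=
    ⟨fun ⟨y, hy, h⟩ => ⟨y, hy, huv.symm.trans h⟩, fun ⟨y, hy, h⟩ => ⟨y, hy, huv.trans h⟩⟩
  simp only [this]

theorem conj_FU [Fact p.Prime] (P U : Subgroup G) (g : G) : conj (FU p P U g) = FU p P U g := by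
  unfold FU
  split_ifs
  · rw [map_zero]
  · rw [Complex.conj_natCast]

/-- fusion in abelian Sylow subgroups -/
theorem mem_of_conj [Fact p.Prime] (P : Sylow p G)
    (hab : ∀ a ∈ (P : Subgroup G), ∀ b ∈ (P : Subgroup G), a * b = b * a) {x y : G}
    (hx : x ∈ (P : Subgroup G)) (hy : y ∈ (P : Subgroup G)) (h : IsConj x y) :
    ∃ n ∈ normalizer ((P : Subgroup G) : Set G), n * x * n⁻¹ = y := by
  haveI hcm : IsMulCommutative (P : Subgroup G) := ⟨⟨fun a b => Subtype.ext (hab a a.2 b b.2)⟩⟩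
  obtain ⟨c, hc⟩ := isConj_iff.mp h
  obtain ⟨n, hn, hn'⟩ := P.conj_eq_normalizer_conj_of_mem x c⁻¹ hx (by rw [inv_inv, hc]; exact hy)
  rw [inv_inv, hc] at hn'
  exact ⟨n⁻¹, inv_mem hn, by rw [inv_inv]; exact hn'.symm⟩

theorem gen_FU [Fact p.Prime] (P : Sylow p G)
    (hab : ∀ a ∈ (P : Subgroup G), ∀ b ∈ (P : Subgroup G), a * b = b * a) {U : Subgroup G}
    (hU : U ≤ P) (hinv : ∀ n ∈ normalizer ((P : Subgroup G) : Set G), ∀ v ∈ U, n * v * n⁻¹ ∈ U) :
    IsGeneralizedCharacter G (FU p (P : Subgroup G) U) := by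
  have hp : p.Prime := Fact.out
  obtain ⟨e, f, he⟩ := exists_isRegExp p hp G
  have hppf : ∀ g : G, pp p g = g ^ f := by
    intro g
    have h1 := he.mul_eq g
    exact (pp_eq (by rw [← _root_.pow_add, add_comm, he.pow_add]) (Commute.pow_pow_self g f e)
      (he.sing g) (he.reg g)).1
  apply BrauerInd.isGeneralizedCharacter_of_restrict_elementary
  · intro g h
    unfold FU
    have : (∃ y ∈ U, IsConj (pp p (h * g * h⁻¹)) y) ↔ ∃ y ∈ U, IsConj (pp p g) y := by
      rw [(pp_conj h g).1]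
      have h1 : IsConj (pp p g) (h * pp p g * h⁻¹) := isConj_iff.mpr ⟨h, rfl⟩
      exact ⟨fun ⟨y, hy, h'⟩ => ⟨y, hy, h1.trans h'⟩, fun ⟨y, hy, h'⟩ => ⟨y, hy, h1.symm.trans h'⟩⟩
    simp only [this]
  intro E q hq hEq
  have hnil := MGroups.isNilpotent_of_isElementary hq hEq
  obtain ⟨πe, πf, hπe, hπf⟩ := BlockCentral.exists_homs hp he E hnil
  set D : E →* G := E.subtype.comp πf with hD
  have hDx : ∀ x : E, D x = pp p (x : G) := by
    intro x
    rw [hppf, hD, MonoidHom.comp_apply, hπf]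
    rfl
  have hDp : IsPGroup p D.range := by
    rintro ⟨_, x, rfl⟩
    obtain ⟨k, hk⟩ := pp_order p (x : G)
    refine ⟨k, Subtype.ext ?_⟩
    show (D x) ^ p ^ k = 1
    rw [hDx, ← hk, pow_orderOf_eq_one]
  obtain ⟨R, hR⟩ := hDp.exists_le_sylow
  obtain ⟨c, hc⟩ := MulAction.exists_smul_eq G R P
  have hcm : ∀ x : E, c * D x * c⁻¹ ∈ (P : Subgroup G) := by
    intro x
    rw [← hc, Sylow.coe_subgroup_smul, Subgroup.mem_pointwise_smul_iff_inv_smul_mem]
    simp only [← map_inv, MulAut.smul_def, MulAut.conj_apply, inv_inv]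
    have h1 : c⁻¹ * (c * D x * c⁻¹) * c = D x := by group
    rw [h1]
    exact hR ⟨x, rfl⟩
  let D' : E →* (P : Subgroup G) := ((MulAut.conj c).toMonoidHom.comp D).codRestrict _ hcm
  haveI hn : (U.subgroupOf (P : Subgroup G)).Normal := by
    constructor
    intro n hn g
    have h1 : g * n * g⁻¹ = n := by
      apply Subtype.ext
      show (g : G) * n * (g : G)⁻¹ = n
      rw [hab g g.2 n n.2, mul_inv_cancel_right]
    rw [h1]; exact hn
  let D'' : E →* (P : Subgroup G) ⧸ U.subgroupOf (P : Subgroup G) := (QuotientGroup.mk' _).comp D'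
  have hreg := ((isCharacter_reg ((P : Subgroup G) ⧸ U.subgroupOf (P : Subgroup G))).comp D'').isGeneralized
  have hcard : Nat.card ((P : Subgroup G) ⧸ U.subgroupOf (P : Subgroup G)) = U.relIndex (P : Subgroup G) := by
    rw [← Subgroup.index_eq_card]; rfl
  have hkey : ∀ x : E, D'' x = 1 ↔ ∃ y ∈ U, IsConj (pp p (x : G)) y := by
    intro x
    have h1 : D'' x = 1 ↔ c * D x * c⁻¹ ∈ U := by
      show (QuotientGroup.mk' (U.subgroupOf (P : Subgroup G))) (D' x) = 1 ↔ _
      rw [QuotientGroup.mk'_apply, QuotientGroup.eq_one_iff, mem_subgroupOf]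
      rfl
    rw [h1, hDx]
    constructor
    · intro h2
      exact ⟨_, h2, isConj_iff.mpr ⟨c, rfl⟩⟩
    · rintro ⟨y, hy, h2⟩
      have h3 : IsConj y (c * pp p (x : G) * c⁻¹) :=
        h2.symm.trans (isConj_iff.mpr ⟨c, rfl⟩)
      have h4 := hcm x
      rw [hDx] at h4
      obtain ⟨n, hn, hn'⟩ := mem_of_conj P hab (hU hy) h4 h3
      rw [← hn']
      exact hinv n hn y hy
  have hfin : (fun x : E => FU p (P : Subgroup G) U (x : G)) =
      fun x : E => ((U.relIndex (P : Subgroup G) : ℕ) : ℂ) - (if D'' x = 1 then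
        (Nat.card ((P : Subgroup G) ⧸ U.subgroupOf (P : Subgroup G)) : ℂ) else 0) := by
    funext x
    unfold FU
    rw [hcard]
    by_cases h : ∃ y ∈ U, IsConj (pp p (x : G)) y
    · rw [if_pos h, if_pos ((hkey x).mpr h), sub_self]
    · rw [if_neg h, if_neg (fun h' => h ((hkey x).mp h')), sub_zero]
  rw [hfin]
  have h1 : IsGeneralizedCharacter E (fun _ : E => ((U.relIndex (P : Subgroup G) : ℕ) : ℂ)) := by
    have h2 := (CharBasic.isIrrCharacter_fun_one (G := E)).isCharacter.isGeneralized.natCast_smul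
      (U.relIndex (P : Subgroup G))
    have h3 : ((U.relIndex (P : Subgroup G) : ℕ) : ℂ) • (fun _ : E => (1 : ℂ)) =
        (fun _ : E => ((U.relIndex (P : Subgroup G) : ℕ) : ℂ)) := by
      funext x
      rw [Pi.smul_apply, smul_eq_mul, mul_one]
    rw [← h3]; exact h2
  refine h1.sub ?_
  convert hreg

end Cfsg.Agent.Lib.H52E16e
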