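import Cfsg.Agent.Lib.Bk4508b
import Cfsg.Agent.Lib.H52E16e

/-!
# Self-centralizing elements of prime order and characters of degree `p - 1`
-/

set_option autoImplicit false
set_option linter.all false

namespace Cfsg.Agent.Lib.Bk4508

open Cfsg Cfsg.Agent.Lib.DefOneLoc Cfsg.Agent.Lib.CharBasic Cfsg.Agent.Lib.DefOneGram
open Cfsg.Agent.Lib.DefOne Cfsg.Agent.Lib.DefOnePrin Cfsg.Agent.Lib.BRB0 Cfsg.Agent.Lib.BRInd Cfsg.Agent.Lib.BRCore

universe u

theorem main_aux {G : Type u} [Group G] [Fintype G] {p : ℕ} [hp : Fact p.Prime] {P N C : Subgroup G}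
    {D : Loc p P N C} [Fintype C] (B : B0 D) (hCP : ∀ c : C, D.l c = 0 → c = 1) (hp2 : p ≠ 2)
    (χ : IrrCharacter G) (hχ : charDegree (χ : G → ℂ) + 1 = p) (hodd : Odd (Nat.card (Tau D))) :
    Even (commutator G).index := by
  classical
  have hv := value_neg_one B hCP hp2 hχ hodd
  have hpe := p_eq D
  set e := Nat.card (κu D).range with he
  have he0 : 0 < e := Nat.card_pos
  have heven : Even e := by
    rcases hp.out.eq_two_or_odd' with h | h
    · exact absurd h hp2
    · rw [hpe] at h
      by_contra hne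
      rw [Nat.not_even_iff_odd] at hne
      have := hne.mul hodd
      rw [Nat.odd_iff] at *
      omega
  obtain ⟨a, e', he', hee'⟩ := Nat.exists_eq_two_pow_mul_odd he0.ne'
  set m := 2 ^ a with hm
  have ha : a ≠ 0 := by
    rintro rfl
    rw [hm, pow_zero, one_mul] at hee'
    rw [← hee'] at he'
    exact (Nat.not_even_iff_odd.2 he') heven
  have hm0 : m ≠ 0 := pow_ne_zero _ two_ne_zero
  have hmev : Even m := by rw [hm]; exact (Nat.even_pow.2 ⟨even_two, ha⟩)
  have hdeg : (χ : G → ℂ) 1 = ((Nat.card (Tau D) * e' * m : ℕ) : ℂ) := by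
    rw [← BlockDeg.charDegree_cast_irr χ]
    have : charDegree (χ : G → ℂ) = Nat.card (Tau D) * e' * m := by
      have h1 : charDegree (χ : G → ℂ) = e * Nat.card (Tau D) := by omega
      rw [h1, hee']; ring
    rw [this]
  -- the element
  obtain ⟨⟨g0, n0, hn0⟩, hgen⟩ := IsCyclic.exists_generator (α := (κu D).range)
  have hg0 : orderOf (κu D n0) = e := by
    have h1 : orderOf (⟨g0, n0, hn0⟩ : (κu D).range) = Nat.card (κu D).range :=
      orderOf_eq_card_of_forall_mem_zpowers hgen
    rw [he, ← h1, ← Subgroup.orderOf_coe]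
    show orderOf (κu D n0) = orderOf g0
    rw [hn0]
  have hco : Nat.Coprime m p := by
    rw [hm]
    apply Nat.Coprime.pow_left
    rw [Nat.coprime_primes Nat.prime_two hp.out]
    exact fun h => hp2 h.symm
  refine even_index χ.2.isCharacter (m := m) (r := Nat.card (Tau D) * e') hm0 hmev (hodd.mul he') hdeg
    (y := ((n0 ^ (p * e') : N) : G)) ?_ ?_
  · rw [← Subgroup.coe_pow, ← pow_mul]
    have h1 : p * e' * m = e * p := by rw [hee']; ring
    rw [h1, pow_mul]
    have h2 : κu D (n0 ^ e) = 1 := by rw [map_pow, ← hg0, pow_orderOf_eq_one]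
    have h3 : ((n0 ^ e : N) : G) ∈ C := (kappa_one_iff D).1 h2
    have h4 : (⟨_, h3⟩ : C) ^ p = 1 := by
      rw [← card_C (D := D) hCP]; exact pow_card_eq_one
    have h5 := congrArg (fun c : C => (c : G)) h4
    simpa using h5
  · intro k hk0 hkm
    rw [← Subgroup.coe_pow, ← pow_mul]
    apply value_zero hCP hχ hv
    intro h
    rw [D.κ_eq] at h
    have h1 : κu D (n0 ^ (p * e' * k)) = 1 := (kappa_one_iff D).2 h
    rw [map_pow, ← orderOf_dvd_iff_pow_eq_one, hg0, hee'] at h1
    have h2 : m * e' ∣ (p * k) * e' := by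
      have : p * e' * k = (p * k) * e' := by ring
      rwa [this] at h1
    have h3 : m ∣ p * k := Nat.dvd_of_mul_dvd_mul_right he'.pos h2
    have h4 : m ∣ k := hco.dvd_of_dvd_mul_left h3
    exact absurd (Nat.le_of_dvd hk0 h4) (by omega)

theorem main {G : Type u} [Group G] [Finite G] (p : ℕ) (hp : p.Prime) (x : G) (hx : orderOf x = p)
    (hC : Subgroup.centralizer ({x} : Set G) = Subgroup.zpowers x) (t : ℕ)
    (ht : Nat.card {C : ConjClasses G // ∃ g ∈ C.carrier, orderOf g = p} = t) (χ : IrrCharacter G)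
    (hχ : charDegree (χ : G → ℂ) + 1 = p) : Even t ∨ Even (commutator G).index := by
  classical
  haveI : Fact p.Prime := ⟨hp⟩
  haveI := Fintype.ofFinite G
  obtain ⟨Q, hQ⟩ := exists_sylow hp hx hC
  have hQc : Nat.card Q = p := by
    show Nat.card (Q : Subgroup G) = p
    rw [hQ, Nat.card_zpowers, hx]
  have hsq := DefOnePrin.not_sq Q hQc
  by_cases hp2 : p = 2
  · right
    subst hp2
    have hG : 2 ∣ Nat.card G := by rw [← hx]; exact orderOf_dvd_natCard x
    obtain ⟨r, hr⟩ := hG
    have hodd : Odd r := by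
      rw [← Nat.not_even_iff_odd]
      intro he
      obtain ⟨s, hs⟩ := he
      apply hsq
      rw [hr, hs]
      exact ⟨s, by ring⟩
    have hreg := H52E16e.isCharacter_reg G
    refine even_index hreg (m := 2) (r := r) two_ne_zero even_two hodd ?_ (y := x) ?_ ?_
    · rw [if_pos rfl, hr, mul_comm]
    · rw [← hx]; exact pow_orderOf_eq_one x
    · intro k hk0 hk2
      have hk1 : k = 1 := by omega
      rw [hk1, pow_one, if_neg]
      rintro rfl
      rw [orderOf_one] at hx
      norm_num at hx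
  by_cases hte : Even t
  · exact Or.inl hte
  right
  rw [Nat.not_even_iff_odd] at hte
  obtain ⟨D, hCf, ⟨B⟩⟩ := exists_B0 Q hQc
  have hxQ : x ∈ (Q : Subgroup G) := by rw [hQ]; exact Subgroup.mem_zpowers x
  have hCP : ∀ c : Subgroup.centralizer ((Q : Subgroup G) : Set G), D.l c = 0 → c = 1 := by
    intro c hc
    have h1 : (c : G) ∈ Subgroup.zpowers x := by
      rw [← hC, Subgroup.mem_centralizer_singleton_iff]
      exact (Subgroup.mem_centralizer_iff.1 c.2 x hxQ).symm
    have h2 : ¬ p ∣ orderOf (c : G) := (D.l_reg c).1 hc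
    have h3 : orderOf (c : G) ∣ p := (orderOf_dvd_of_mem_zpowers h1).trans (dvd_of_eq hx)
    rcases (Nat.dvd_prime hp).1 h3 with h | h
    · exact Subtype.ext (orderOf_eq_one_iff.1 h)
    · exact absurd (by rw [h]) h2
  have htau : Nat.card (Tau D) = t := by rw [← ht]; exact (card_classes (D := D) Q rfl hCP).symm
  exact main_aux B hCP hp2 χ hχ (by rw [htau]; exact hte)

end Cfsg.Agent.Lib.Bk4508
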