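import Cfsg.Agent.Lib.CosetAvg
import Cfsg.Agent.Lib.CliffordExt
import Cfsg.Agent.Lib.PermLemma
import Cfsg.Agent.Lib.CharGalois

/-!
# Characters fixed by a Galois automorphism over normal subgroups of odd index: cyclic and solvable quotients
-/

set_option autoImplicit false
set_option linter.all false

namespace Cfsg.Agent.Lib.Bk4519

open scoped ComplexConjugate
open Cfsg Cfsg.Agent.Lib.CharBasic Cfsg.Agent.Lib.Clifford Cfsg.Agent.Lib.CliffordCorr
open Cfsg.Agent.Lib.CanonExt

universe u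

variable {G : Type u} [Group G]

/-- fixed by the power map -/
def Fix {X : Type*} [Group X] (k : ℕ) (χ : X → ℂ) : Prop := ∀ g : X, χ (g ^ k) = χ g

/-- hypotheses on the exponent -/
structure Hk (G : Type*) [Group G] (k : ℕ) : Prop where
  cop : Nat.Coprime k (Nat.card G)
  inv : ∀ g : G, Odd (orderOf g) → g ^ k = g⁻¹

theorem Hk.sub [Finite G] {k : ℕ} (h : Hk G k) (H : Subgroup G) : Hk H k where
  cop := h.cop.coprime_dvd_right (Subgroup.card_subgroup_dvd_card H)
  inv x hx := by
    have h1 : Odd (orderOf (x : G)) := by rwa [Subgroup.orderOf_coe]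
    exact Subtype.ext (h.inv x h1)

theorem Hk.quot [Finite G] {k : ℕ} (h : Hk G k) (N : Subgroup G) [N.Normal] (hodd : Odd N.index)
    (x : G ⧸ N) : x ^ k = x⁻¹ := by
  obtain ⟨g, rfl⟩ := QuotientGroup.mk_surjective x
  have ho : Odd (orderOf (g : G ⧸ N)) := by
    refine hodd.of_dvd_nat ?_
    rw [Subgroup.index_eq_card]
    exact orderOf_dvd_natCard _
  set a := (Nat.card G).factorization 2 with ha
  have hG : Nat.card G = 2 ^ a * (Nat.card G / 2 ^ a) := (Nat.ordProj_mul_ordCompl_eq_self _ 2).symm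
  have hnd : ¬ 2 ∣ Nat.card G / 2 ^ a := Nat.not_dvd_ordCompl Nat.prime_two Nat.card_pos.ne'
  have hco : Nat.Coprime (orderOf (g : G ⧸ N)) (2 ^ a) :=
    Nat.Coprime.pow_right _ (Nat.coprime_two_right.mpr ho)
  obtain ⟨c, hc1, hc2⟩ := Nat.chineseRemainder hco 1 0
  obtain ⟨m, hm⟩ := Nat.modEq_zero_iff_dvd.1 hc2
  have h1 : Odd (orderOf (g ^ c)) := by
    rw [← Nat.not_even_iff_odd, even_iff_two_dvd]
    intro h2
    apply hnd
    refine h2.trans (orderOf_dvd_of_pow_eq_one ?_)
    rw [← pow_mul, hm]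
    have : 2 ^ a * m * (Nat.card G / 2 ^ a) = Nat.card G * m := by
      conv_rhs => rw [hG]
      ring
    rw [this, pow_mul, pow_card_eq_one', one_pow]
  have h2 := h.inv _ h1
  have h3 : ((g ^ c : G) : G ⧸ N) = (g : G ⧸ N) := by
    rw [QuotientGroup.mk_pow]
    have := pow_eq_pow_iff_modEq.2 hc1
    rwa [pow_one] at this
  have h4 := congrArg (fun y : G => (y : G ⧸ N)) h2
  simp only [QuotientGroup.mk_pow, QuotientGroup.mk_inv] at h4
  rw [QuotientGroup.mk_pow] at h3
  rw [h3] at h4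
  exact h4

/-- a fixed irreducible character of a quotient of odd order is trivial -/
theorem eq_one_of_fix [Finite G] {k : ℕ} (hk : Hk G k) (N : Subgroup G) [N.Normal]
    (hodd : Odd N.index) {β : G → ℂ} (hβ : IsIrrCharacter G β) (hc : ∀ n ∈ N, β n = β 1)
    (hf : Fix k β) : β = fun _ => 1 := by
  obtain ⟨ψ, hψ, hψβ⟩ := hβ.deflate N hc
  have hreal : ∀ x : G ⧸ N, (ψ x).im = 0 := by
    intro x
    have h1 : ψ x⁻¹ = ψ x := by
      obtain ⟨g, rfl⟩ := QuotientGroup.mk_surjective x
      rw [← hk.quot N hodd, ← QuotientGroup.mk_pow, hψβ, hψβ]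
      exact hf g
    rw [hψ.inv] at h1
    exact Complex.conj_eq_iff_im.1 h1
  have hodd' : Odd (Nat.card (G ⧸ N)) := by rwa [← Subgroup.index_eq_card]
  have h2 := PermLemma.real_irr_of_odd hodd' ⟨ψ, hψ⟩ hreal
  funext g
  rw [← hψβ g]
  exact congrFun h2 _

theorem fix_pow_irr [Finite G] {k : ℕ} (hk : Hk G k) {χ : G → ℂ} (hχ : IsIrrCharacter G χ) :
    IsIrrCharacter G (fun g => χ (g ^ k)) := CharGalois.isIrrCharacter_pow hχ hk.cop

/-- uniqueness -/
theorem unique [Finite G] {k : ℕ} (hk : Hk G k) (N : Subgroup G) [N.Normal] [Fintype N]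
    (hodd : Odd N.index) {θ : N → ℂ} (hθ : IsIrrCharacter N θ) {χ₀ χ : G → ℂ}
    (h₀ : IsIrrCharacter G χ₀) (hext : ∀ n : N, χ₀ n = θ n) (hf₀ : Fix k χ₀)
    (hχ : IsIrrCharacter G χ) (hf : Fix k χ) (hc : classInner (fun n : N => χ n) θ ≠ 0) :
    χ = χ₀ := by
  haveI := Fintype.ofFinite G
  obtain ⟨β, hβ, hβc, hβχ⟩ := exists_gallagher hθ h₀ hext hχ hc
  have hβ' := fix_pow_irr hk hβ
  have hfix : Fix k β := by
    have h1 : (fun g => β (g ^ k)) * χ₀ = β * χ₀ := by
      rw [← hβχ]
      funext g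
      have h2 := congrFun hβχ (g ^ k)
      rw [Pi.mul_apply, hf g, hf₀ g] at h2
      rw [Pi.mul_apply, h2]
    have h3 := (bijOn hθ h₀ hext).injOn (x₁ := fun g => β (g ^ k)) (x₂ := β)
      ⟨hβ', fun n => by
        show β ((n : G) ^ k) = β (1 ^ k)
        rw [one_pow, ← Subgroup.coe_pow, hβc]⟩ ⟨hβ, hβc⟩ h1
    intro g
    exact congrFun h3 g
  have h1 := eq_one_of_fix hk N hodd hβ (fun n hn => hβc ⟨n, hn⟩) hfix
  rw [hβχ, h1]
  funext g
  simp

/-- cyclic quotients -/
theorem ext_cyclic [Finite G] {k : ℕ} (hk : Hk G k) (N : Subgroup G) [N.Normal]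
    (hodd : Odd N.index) (hcyc : IsCyclic (G ⧸ N)) {θ : N → ℂ} (hθ : IsIrrCharacter N θ)
    (hf : Fix k θ) (hinv : ∀ g : G, cj N g θ = θ) :
    ∃ χ : G → ℂ, IsIrrCharacter G χ ∧ (∀ n : N, χ n = θ n) ∧ Fix k χ := by
  obtain ⟨χ₁, h1, h2⟩ := CliffordExt.exists_extension_of_cyclic hcyc hθ hinv
  have h1' := fix_pow_irr hk h1
  have h2' : ∀ n : N, χ₁ ((n : G) ^ k) = θ n := by
    intro n
    rw [← Subgroup.coe_pow, h2, hf]
  obtain ⟨lam, hl1, hl2⟩ := exists_linear_twist hθ h1 h2 h1' h2'
  set m := N.index with hm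
  obtain ⟨r, hr⟩ := hodd
  set μ : G →* ℂˣ := lam ^ (r + 1) with hμ
  have hμ1 : ∀ n ∈ N, μ n = 1 := by
    intro n hn
    rw [hμ, MonoidHom.pow_apply, hl1 ⟨n, hn⟩, one_pow]
  have hlm : ∀ g, (lam g) ^ m = 1 := by
    intro g
    have h3 : g ^ m ∈ N := Subgroup.pow_index_mem N g
    rw [← map_pow]
    exact hl1 ⟨_, h3⟩
  have hμ2 : ∀ g, μ g * μ g = lam g := by
    intro g
    rw [hμ, MonoidHom.pow_apply, ← pow_add]
    have : r + 1 + (r + 1) = m + 1 := by rw [hr]; ring
    rw [this, pow_succ, hlm, one_mul]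
  have hμk : ∀ g, μ (g ^ k) = (μ g)⁻¹ := by
    intro g
    have h3 : (g ^ k) * g ∈ N := by
      have h4 := hk.quot N (by rw [← hm, hr]; exact ⟨r, rfl⟩) (g : G ⧸ N)
      rw [← QuotientGroup.eq_one_iff, QuotientGroup.mk_mul, QuotientGroup.mk_pow, h4, inv_mul_cancel]
    have h4 := hμ1 _ h3
    rw [map_mul] at h4
    exact eq_inv_of_mul_eq_one_left h4
  refine ⟨fun g => (μ g : ℂ) * χ₁ g, ?_, ?_, ?_⟩
  · have h3 : (fun g => (μ g : ℂ) * χ₁ g) = χ₁ * (fun g => (μ g : ℂ)) := by
      funext g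
      rw [Pi.mul_apply, mul_comm]
    rw [h3]
    exact h1.mul_linear (isCharacter_of_unitsHom μ) (by simp)
  · intro n
    show (μ (n : G) : ℂ) * χ₁ n = θ n
    rw [hμ1 n n.2, Units.val_one, one_mul, h2]
  · intro g
    show (μ (g ^ k) : ℂ) * χ₁ (g ^ k) = (μ g : ℂ) * χ₁ g
    have h3 : χ₁ (g ^ k) = (lam g : ℂ) * χ₁ g := congrFun hl2 g
    rw [hμk, h3, ← hμ2, ← mul_assoc, ← Units.val_mul, ← mul_assoc, inv_mul_cancel, one_mul]

/-! ### transport to subgroups -/

/-- `θ` as a function on `N` viewed inside `H` -/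
def tr (N H : Subgroup G) (θ : N → ℂ) : N.subgroupOf H → ℂ :=
  fun x => θ ⟨((x : H) : G), Subgroup.mem_subgroupOf.1 x.2⟩

theorem isIrr_tr {N H : Subgroup G} (h : N ≤ H) {θ : N → ℂ} (hθ : IsIrrCharacter N θ) :
    IsIrrCharacter (N.subgroupOf H) (tr N H θ) :=
  (isIrrCharacter_comp_mulEquiv_iff (Subgroup.subgroupOfEquivOfLe h)).mpr hθ

theorem fix_tr {N H : Subgroup G} {k : ℕ} {θ : N → ℂ} (hf : Fix k θ) : Fix k (tr N H θ) := by
  intro x
  have := hf ⟨((x : H) : G), Subgroup.mem_subgroupOf.1 x.2⟩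
  rw [tr, tr, ← this]
  rfl

theorem cj_tr {N H : Subgroup G} [N.Normal] {θ : N → ℂ} (hinv : ∀ g : G, cj N g θ = θ) (g : H) :
    cj (N.subgroupOf H) g (tr N H θ) = tr N H θ := by
  funext x
  have := congrFun (hinv g) ⟨((x : H) : G), Subgroup.mem_subgroupOf.1 x.2⟩
  rw [cj_apply, tr, tr, ← this, cj_apply]
  rfl

theorem odd_sub [Finite G] {N H : Subgroup G} [N.Normal] (hodd : Odd N.index) :
    Odd (N.subgroupOf H).index := by
  have : N.relIndex H ∣ N.index := Subgroup.relIndex_dvd_index_of_normal N H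
  exact hodd.of_dvd_nat this

/-- solvable non-trivial groups have proper normal subgroups with cyclic quotient -/
theorem exists_cyclic_quotient [Finite G] [Group.IsSolvable G] [Nontrivial G] :
    ∃ (M : Subgroup G) (_ : M.Normal), M ≠ ⊤ ∧ IsCyclic (G ⧸ M) := by
  have h1 : commutator G < ⊤ := Group.IsSolvable.commutator_lt_top_of_nontrivial G
  have h2 : ∃ g : G, g ∉ commutator G := by
    by_contra h
    push Not at h
    exact h1.ne (top_le_iff.1 fun g _ => h g)
  obtain ⟨g, hg⟩ := h2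
  have h3 : (Abelianization.of g : Abelianization G) ≠ 1 := by
    intro h
    apply hg
    rw [← Abelianization.ker_of, MonoidHom.mem_ker]
    exact h
  obtain ⟨φ, hφ⟩ := CommGroup.exists_apply_ne_one_of_hasEnoughRootsOfUnity (Abelianization G) ℂ h3
  set f : G →* ℂˣ := φ.comp Abelianization.of with hf
  refine ⟨f.ker, inferInstance, ?_, ?_⟩
  · intro h
    have : g ∈ f.ker := h ▸ Subgroup.mem_top g
    rw [MonoidHom.mem_ker] at this
    exact hφ this
  · haveI : Finite f.range := Set.finite_range f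
    exact isCyclic_of_surjective (QuotientGroup.quotientKerEquivRange f).symm
      (QuotientGroup.quotientKerEquivRange f).symm.surjective

theorem ext_solvable (k : ℕ) : ∀ n : ℕ, ∀ (G : Type u) [Group G] [Finite G], Nat.card G = n → Hk G k →
    ∀ (N : Subgroup G) [N.Normal], Odd N.index → Group.IsSolvable (G ⧸ N) → ∀ θ : N → ℂ,
    IsIrrCharacter N θ → Fix k θ → (∀ g : G, cj N g θ = θ) →
    ∃ χ : G → ℂ, IsIrrCharacter G χ ∧ (∀ n : N, χ n = θ n) ∧ Fix k χ := by
  intro n
  induction n using Nat.strong_induction_on with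
  | _ n ih =>
    intro G _ _ hcard hk N _ hodd hsol θ hθ hf hinv
    by_cases hN : N = ⊤
    · have hmem : ∀ g : G, g ∈ N := fun g => hN ▸ Subgroup.mem_top g
      have hcyc : IsCyclic (G ⧸ N) := by
        haveI : Subsingleton (G ⧸ N) := by
          subst hN
          exact QuotientGroup.subsingleton_quotient_top
        infer_instance
      exact ext_cyclic hk N hodd hcyc hθ hf hinv
    · haveI : Nontrivial (G ⧸ N) := by
        by_contra hnt
        rw [not_nontrivial_iff_subsingleton] at hnt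
        apply hN
        exact QuotientGroup.subgroup_eq_top_of_subsingleton N hnt
      haveI := hsol
      obtain ⟨M₀, hM₀n, hM₀, hM₀c⟩ := exists_cyclic_quotient (G := G ⧸ N)
      set M : Subgroup G := M₀.comap (QuotientGroup.mk' N) with hM
      haveI : M.Normal := hM₀n.comap _
      have hNM : N ≤ M := by
        intro g hg
        rw [hM, Subgroup.mem_comap]
        have : (QuotientGroup.mk' N) g = 1 := (QuotientGroup.eq_one_iff g).2 hg
        rw [this]; exact M₀.one_mem
      have hMt : M ≠ ⊤ := by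
        intro h
        apply hM₀
        rw [hM] at h
        have := Subgroup.comap_injective (QuotientGroup.mk'_surjective N)
        apply this
        rw [h, Subgroup.comap_top]
      have hMc : IsCyclic (G ⧸ M) := by
        let f : G →* (G ⧸ N) ⧸ M₀ := (QuotientGroup.mk' M₀).comp (QuotientGroup.mk' N)
        have hker : f.ker = M := by
          ext g
          rw [MonoidHom.mem_ker, hM, Subgroup.mem_comap]
          exact QuotientGroup.eq_one_iff _
        have hsur : Function.Surjective f :=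
          (QuotientGroup.mk'_surjective M₀).comp (QuotientGroup.mk'_surjective N)
        let e := QuotientGroup.quotientKerEquivOfSurjective f hsur
        have : IsCyclic (G ⧸ f.ker) := isCyclic_of_surjective e.symm e.symm.surjective
        exact isCyclic_of_surjective (QuotientGroup.quotientMulEquivOfEq hker)
          (QuotientGroup.quotientMulEquivOfEq hker).surjective
      have hoddM : Odd M.index := hodd.of_dvd_nat (Subgroup.index_dvd_of_le hNM)
      have hlt : Nat.card M < n := by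
        rw [← hcard]
        have h1 := Subgroup.card_le_card_group M
        refine lt_of_le_of_ne h1 fun h => hMt ?_
        exact Subgroup.eq_top_of_card_eq M h
      have hsolM : Group.IsSolvable (M ⧸ N.subgroupOf M) := by
        let f : M ⧸ N.subgroupOf M →* G ⧸ N := QuotientGroup.map (N.subgroupOf M) N M.subtype
          (fun x hx => Subgroup.mem_subgroupOf.1 hx)
        have hinj : Function.Injective f := by
          rw [injective_iff_map_eq_one]
          intro x hx
          obtain ⟨y, rfl⟩ := QuotientGroup.mk_surjective x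
          have hx' : ((y : G) : G ⧸ N) = 1 := hx
          rw [QuotientGroup.eq_one_iff] at hx' ⊢
          exact Subgroup.mem_subgroupOf.2 hx'
        exact Group.isSolvable_of_isSolvable_injective hinj
      haveI : Fintype (N.subgroupOf M) := Fintype.ofFinite _
      obtain ⟨χ₁, h1, h2, h3⟩ := ih (Nat.card M) hlt M rfl (hk.sub M) (N.subgroupOf M) (odd_sub hodd)
        hsolM (tr N M θ) (isIrr_tr hNM hθ) (fix_tr hf) (fun g => cj_tr hinv g)
      -- invariance of `χ₁`
      have hinv₁ : ∀ g : G, cj M g χ₁ = χ₁ := by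
        intro g
        have h4 : IsIrrCharacter M (cj M g χ₁) := isIrrCharacter_cj h1 g
        have h5 : ∀ x : N.subgroupOf M, cj M g χ₁ (x : M) = tr N M θ x := by
          intro x
          rw [cj_apply]
          have hx : ((x : M) : G) ∈ N := Subgroup.mem_subgroupOf.1 x.2
          have hx' : g * ((x : M) : G) * g⁻¹ ∈ N := Subgroup.Normal.conj_mem inferInstance _ hx g
          have h6 := h2 ⟨⟨g * ((x : M) : G) * g⁻¹, hNM hx'⟩, Subgroup.mem_subgroupOf.2 hx'⟩
          have h7 := congrFun (hinv g) ⟨((x : M) : G), hx⟩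
          rw [cj_apply] at h7
          have h8 : tr N M θ ⟨⟨g * ((x : M) : G) * g⁻¹, hNM hx'⟩, Subgroup.mem_subgroupOf.2 hx'⟩ =
            tr N M θ x := h7
          rw [← h8, ← h6]
        refine unique (hk.sub M) (N.subgroupOf M) (odd_sub hodd) (isIrr_tr hNM hθ) h1 h2 h3 h4 ?_ ?_
        · intro x
          rw [cj_apply, cj_apply, ← h3 ⟨g * x * g⁻¹, _⟩]
          congr 1
          apply Subtype.ext
          show g * ((x ^ k : M) : G) * g⁻¹ = (g * (x : G) * g⁻¹) ^ k
          rw [Subgroup.coe_pow, conj_pow]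
        · have h6 : (fun n : N.subgroupOf M => cj M g χ₁ (n : M)) = tr N M θ := funext h5
          rw [h6, (isIrr_tr hNM hθ).classInner_self]
          exact one_ne_zero
      obtain ⟨χ, h4, h5, h6⟩ := ext_cyclic hk M hoddM hMc h1 h3 hinv₁
      refine ⟨χ, h4, ?_, h6⟩
      intro x
      have h7 := h5 ⟨(x : G), hNM x.2⟩
      have h8 := h2 ⟨⟨(x : G), hNM x.2⟩, Subgroup.mem_subgroupOf.2 x.2⟩
      rw [h7]
      exact h8

end Cfsg.Agent.Lib.Bk4519
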