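import Cfsg.Agent.Lib.Bk4519a
import Cfsg.Agent.Lib.MGroups
import Cfsg.Agent.Lib.BrauerInd

/-!
# Characters fixed by a Galois automorphism over normal subgroups of odd index: invariant characters
-/

set_option autoImplicit false
set_option linter.all false

namespace Cfsg.Agent.Lib.Bk4519

open scoped ComplexConjugate
open Cfsg Cfsg.Agent.Lib.CharBasic Cfsg.Agent.Lib.Clifford Cfsg.Agent.Lib.CliffordCorr
open Cfsg.Agent.Lib.CanonExt

universe u

variable {G : Type u} [Group G]

theorem solvable_sup [Finite G] (N E : Subgroup G) [N.Normal] (hE : Group.IsSolvable E) :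
    Group.IsSolvable ((N ⊔ E : Subgroup G) ⧸ N.subgroupOf (N ⊔ E)) := by
  let f : E →* (N ⊔ E : Subgroup G) ⧸ N.subgroupOf (N ⊔ E) :=
    (QuotientGroup.mk' _).comp (Subgroup.inclusion le_sup_right)
  have hf : Function.Surjective f := by
    intro x
    obtain ⟨⟨y, hy⟩, rfl⟩ := QuotientGroup.mk_surjective x
    have hy' : y ∈ ((E ⊔ N : Subgroup G) : Set G) := by rw [sup_comm]; exact hy
    rw [Subgroup.mul_normal] at hy'
    obtain ⟨e, he, n, hn, hen⟩ := hy'
    refine ⟨⟨e, he⟩, ?_⟩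
    show ((⟨e, _⟩ : (N ⊔ E : Subgroup G)) : (N ⊔ E : Subgroup G) ⧸ N.subgroupOf (N ⊔ E)) = _
    rw [QuotientGroup.eq, Subgroup.mem_subgroupOf]
    have : e⁻¹ * y = n := by rw [← hen]; simp
    show e⁻¹ * y ∈ N
    rw [this]; exact hn
  exact Group.isSolvable_of_surjective hf

theorem ext_inv [Finite G] {k : ℕ} (hk : Hk G k) (N : Subgroup G) [N.Normal]
    (hodd : Odd N.index) {θ : N → ℂ} (hθ : IsIrrCharacter N θ)
    (hf : Fix k θ) (hinv : ∀ g : G, cj N g θ = θ) :
    ∃ χ : G → ℂ, IsIrrCharacter G χ ∧ (∀ n : N, χ n = θ n) ∧ Fix k χ := by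
  classical
  haveI := Fintype.ofFinite G
  have hex : ∀ E : Subgroup G, Group.IsSolvable E → ∃ ψ : (N ⊔ E : Subgroup G) → ℂ,
      IsIrrCharacter (N ⊔ E : Subgroup G) ψ ∧
      (∀ x : N.subgroupOf (N ⊔ E), ψ x = tr N (N ⊔ E) θ x) ∧ Fix k ψ := by
    intro E hE
    exact ext_solvable k (Nat.card (N ⊔ E : Subgroup G)) (N ⊔ E : Subgroup G) rfl (hk.sub _)
      (N.subgroupOf (N ⊔ E)) (odd_sub hodd) (solvable_sup N E hE) (tr N (N ⊔ E) θ)
      (isIrr_tr le_sup_left hθ) (fix_tr hf) (fun g => cj_tr hinv g)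
  have hzs : ∀ g : G, Group.IsSolvable (Subgroup.zpowers g) := fun g =>
    Group.isSolvable_of_comm (fun a b => by
      obtain ⟨i, hi⟩ := a.2
      obtain ⟨j, hj⟩ := b.2
      apply Subtype.ext
      rw [Subgroup.coe_mul, Subgroup.coe_mul, ← hi, ← hj]
      change g ^ i * g ^ j = g ^ j * g ^ i
      rw [← zpow_add, ← zpow_add, add_comm])
  choose τ hτ1 hτ2 hτ3 using fun g : G => hex (Subgroup.zpowers g) (hzs g)
  have hmem : ∀ g : G, g ∈ N ⊔ Subgroup.zpowers g := fun g =>
    Subgroup.mem_sup_right (Subgroup.mem_zpowers g)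
  set χ : G → ℂ := fun g => τ g ⟨g, hmem g⟩ with hχ
  -- the key property
  have key : ∀ (H : Subgroup G) (hNH : N ≤ H) (ψ : H → ℂ), IsIrrCharacter H ψ →
      (∀ x : N.subgroupOf H, ψ x = tr N H θ x) → Fix k ψ → ∀ h : H, ψ h = χ h := by
    intro H hNH ψ h1 h2 h3 h
    set L : Subgroup G := N ⊔ Subgroup.zpowers (h : G) with hL
    have hLH : L ≤ H := sup_le hNH (Subgroup.zpowers_le.2 h.2)
    have hNL : N ≤ L := le_sup_left
    haveI : Fintype (N.subgroupOf L) := Fintype.ofFinite _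
    set ψ' : L → ℂ := fun x => ψ ⟨x, hLH x.2⟩ with hψ'
    have c1 : IsCharacter L ψ' := h1.isCharacter.comp (Subgroup.inclusion hLH)
    have c2 : ∀ x : N.subgroupOf L, ψ' x = tr N L θ x := by
      intro x
      have := h2 ⟨⟨((x : L) : G), hLH (x : L).2⟩, Subgroup.mem_subgroupOf.2 (Subgroup.mem_subgroupOf.1 x.2)⟩
      exact this
    have c3 : IsIrrCharacter L ψ' := isIrr_of_ext (isIrr_tr hNL hθ) c1 c2
    have c4 : Fix k ψ' := by
      intro x
      have := h3 ⟨x, hLH x.2⟩
      exact this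
    have c5 : ψ' = τ h := by
      refine unique (hk.sub L) (N.subgroupOf L) (odd_sub hodd) (isIrr_tr hNL hθ) (hτ1 h) (hτ2 h) (hτ3 h)
        c3 c4 ?_
      have h6 : (fun n : N.subgroupOf L => ψ' n) = tr N L θ := funext c2
      rw [h6, (isIrr_tr hNL hθ).classInner_self]
      exact one_ne_zero
    exact congrFun c5 ⟨h, hmem h⟩
  -- restriction to `N`
  have hext : ∀ n : N, χ n = θ n := by
    intro n
    refine (key N le_rfl θ hθ ?_ hf n).symm
    intro x
    rfl
  have hfix : Fix k χ := by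
    intro g
    have h1 : g ^ k ∈ N ⊔ Subgroup.zpowers g := Subgroup.pow_mem _ (hmem g) k
    have h2 := key _ le_sup_left (τ g) (hτ1 g) (hτ2 g) (hτ3 g) ⟨g ^ k, h1⟩
    have h3 := hτ3 g ⟨g, hmem g⟩
    show χ (g ^ k) = χ g
    rw [← h2]
    exact h3
  -- class function
  have hcl : IsClassFunction G χ := by
    intro g x
    -- conjugate of `τ (x g x⁻¹)` on `N⟨g⟩`
    set L : Subgroup G := N ⊔ Subgroup.zpowers g with hL
    set L' : Subgroup G := N ⊔ Subgroup.zpowers (x * g * x⁻¹) with hL'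
    have hNL : N ≤ L := le_sup_left
    have hLL : ∀ y ∈ L, x * y * x⁻¹ ∈ L' := by
      have : L ≤ L'.comap (MulAut.conj x).toMonoidHom := by
        refine sup_le ?_ ?_
        · intro n hn
          show x * n * x⁻¹ ∈ L'
          exact Subgroup.mem_sup_left (Subgroup.Normal.conj_mem inferInstance n hn x)
        · rw [Subgroup.zpowers_le]
          show x * g * x⁻¹ ∈ L'
          exact Subgroup.mem_sup_right (Subgroup.mem_zpowers _)
      exact fun y hy => this hy
    let f : L →* L' := ((MulAut.conj x).toMonoidHom.comp L.subtype).codRestrict L' (fun y => hLL y y.2)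
    have hfv : ∀ y : L, ((f y : L') : G) = x * y * x⁻¹ := fun y => rfl
    set ψ : L → ℂ := fun y => τ (x * g * x⁻¹) (f y) with hψ
    have c1 : IsCharacter L ψ := (hτ1 (x * g * x⁻¹)).isCharacter.comp f
    have c2 : ∀ y : N.subgroupOf L, ψ y = tr N L θ y := by
      intro y
      have hy : ((y : L) : G) ∈ N := Subgroup.mem_subgroupOf.1 y.2
      have hy' : x * ((y : L) : G) * x⁻¹ ∈ N := Subgroup.Normal.conj_mem inferInstance _ hy x
      have h6 := hτ2 (x * g * x⁻¹) ⟨f y, Subgroup.mem_subgroupOf.2 hy'⟩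
      have h7 := congrFun (hinv x) ⟨((y : L) : G), hy⟩
      rw [cj_apply] at h7
      have h8 : tr N L' θ ⟨f y, Subgroup.mem_subgroupOf.2 hy'⟩ = tr N L θ y := h7
      rw [← h8, ← h6]
    have c3 : IsIrrCharacter L ψ := isIrr_of_ext (isIrr_tr hNL hθ) c1 c2
    have c4 : Fix k ψ := by
      intro y
      show τ (x * g * x⁻¹) (f (y ^ k)) = τ (x * g * x⁻¹) (f y)
      rw [map_pow]
      exact hτ3 _ _
    have c5 := key L hNL ψ c3 c2 c4 ⟨g, hmem g⟩
    rw [← c5]
    rfl
  -- generalized character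
  have hgen : IsGeneralizedCharacter G χ := by
    apply BrauerInd.isGeneralizedCharacter_of_restrict_elementary χ hcl
    intro E p hp hE
    haveI := MGroups.isNilpotent_of_isElementary hp hE
    have hsol : Group.IsSolvable E := inferInstance
    obtain ⟨ψ, h1, h2, h3⟩ := hex E hsol
    have h4 : (fun e : E => χ e) = fun e : E => ψ (Subgroup.inclusion le_sup_right e) := by
      funext e
      exact (key _ le_sup_left ψ h1 h2 h3 (Subgroup.inclusion le_sup_right e)).symm
    rw [h4]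
    exact (h1.isCharacter.comp (Subgroup.inclusion le_sup_right)).isGeneralized
  -- norm
  have hnorm : classInner χ χ = 1 := by
    haveI : Fintype N := Fintype.ofFinite N
    have hNc : (Nat.card N : ℂ) ≠ 0 := by exact_mod_cast Nat.card_pos.ne'
    have h1 : ∀ g : G, (Nat.card N : ℂ)⁻¹ * ∑ n : N, χ (n * g) * conj (χ (n * g)) = 1 := by
      intro g
      set L : Subgroup G := N ⊔ Subgroup.zpowers g with hL
      have hNL : N ≤ L := le_sup_left
      haveI : Fintype L := Fintype.ofFinite L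
      haveI : Fintype (N.subgroupOf L) := Fintype.ofFinite _
      have h2 := (CosetAvg.coset_average (isIrr_tr hNL hθ) (hτ1 g) (hτ2 g) (hτ1 g)).1
        (fun _ => 1) isIrrCharacter_fun_one (fun _ => rfl) (by funext y; simp) ⟨g, hmem g⟩
      have h3 : Nat.card (N.subgroupOf L) = Nat.card N :=
        Nat.card_congr (Subgroup.subgroupOfEquivOfLe hNL).toEquiv
      rw [h3] at h2
      rw [← h2]
      congr 1
      refine Fintype.sum_equiv (Subgroup.subgroupOfEquivOfLe hNL).symm.toEquiv _ _ ?_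
      intro n
      have h4 := key L hNL (τ g) (hτ1 g) (hτ2 g) (hτ3 g)
        ((((Subgroup.subgroupOfEquivOfLe hNL).symm n : N.subgroupOf L) : L) * ⟨g, hmem g⟩)
      have h5 : χ ((n : G) * g) = τ g ((((Subgroup.subgroupOfEquivOfLe hNL).symm n : N.subgroupOf L) : L) *
          ⟨g, hmem g⟩) := h4.symm
      show χ ((n : G) * g) * conj (χ ((n : G) * g)) = _
      rw [h5]
      rfl
    rw [classInner_def]
    have h2 : ∑ g : G, χ g * conj (χ g) =
        ∑ g : G, (Nat.card N : ℂ)⁻¹ * ∑ n : N, χ (n * g) * conj (χ (n * g)) := by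
      rw [← Finset.mul_sum, Finset.sum_comm]
      have h3 : ∀ n : N, ∑ g : G, χ (n * g) * conj (χ (n * g)) = ∑ g : G, χ g * conj (χ g) := by
        intro n
        exact Fintype.sum_equiv (Equiv.mulLeft (n : G)) _ _ (fun g => rfl)
      rw [Finset.sum_congr rfl (fun n _ => h3 n), Finset.sum_const, Finset.card_univ, nsmul_eq_mul,
        ← Nat.card_eq_fintype_card, ← mul_assoc, inv_mul_cancel₀ hNc, one_mul]
    rw [h2, Finset.sum_congr rfl (fun g _ => h1 g), Finset.sum_const, Finset.card_univ, nsmul_eq_mul,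
      mul_one, Nat.card_eq_fintype_card, inv_mul_cancel₀]
    exact_mod_cast Fintype.card_ne_zero
  refine ⟨χ, hgen.irr_of_norm_one hnorm ?_, hext, hfix⟩
  have h1 := hext 1
  rw [Subgroup.coe_one] at h1
  obtain ⟨d, hd0, hd⟩ := hθ.exists_degree
  rw [h1, hd, Complex.natCast_re]
  positivity

end Cfsg.Agent.Lib.Bk4519
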