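import Cfsg.Agent.Lib.Bk4519b

/-!
# Characters fixed by a Galois automorphism over normal subgroups of odd index: the general case
-/

set_option autoImplicit false
set_option linter.all false

namespace Cfsg.Agent.Lib.Bk4519

open scoped ComplexConjugate
open Cfsg Cfsg.Agent.Lib.CharBasic Cfsg.Agent.Lib.Clifford Cfsg.Agent.Lib.CliffordCorr
open Cfsg.Agent.Lib.CanonExt

universe u

variable {G : Type u} [Group G]

theorem mem_of_pow_mem [Finite G] {k : ℕ} (hk : Nat.Coprime k (Nat.card G)) {H : Subgroup G} {y : G}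
    (h : y ^ k ∈ H) : y ∈ H := by
  have h1 : Nat.Coprime (orderOf y) k := (hk.coprime_dvd_right (orderOf_dvd_natCard y)).symm
  have h2 : Subgroup.zpowers (y ^ k) = Subgroup.zpowers y := by
    apply Subgroup.eq_of_le_of_card_ge
    · rw [Subgroup.zpowers_le]; exact Subgroup.pow_mem _ (Subgroup.mem_zpowers y) k
    · rw [Nat.card_zpowers, Nat.card_zpowers, Nat.Coprime.orderOf_pow h1]
  have h3 : y ∈ Subgroup.zpowers (y ^ k) := by rw [h2]; exact Subgroup.mem_zpowers y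
  exact (Subgroup.zpowers_le.2 h) h3

theorem indFun_pow [Fintype G] {k : ℕ} (hk : Nat.Coprime k (Nat.card G)) (H : Subgroup G)
    (ψ : H → ℂ) (g : G) : indFun H (fun t => ψ (t ^ k)) g = indFun H ψ (g ^ k) := by
  rw [IndFun.indFun_apply, IndFun.indFun_apply]
  congr 1
  refine Finset.sum_congr rfl fun x _ => ?_
  have h1 : x⁻¹ * g ^ k * x = (x⁻¹ * g * x) ^ k := by
    have := conj_pow (a := x⁻¹) (b := g) (i := k)
    rw [inv_inv] at this
    exact this.symm
  rw [h1]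
  by_cases h : x⁻¹ * g * x ∈ H
  · rw [IndFun.extendByZero_mem H _ h, IndFun.extendByZero_mem H _ (H.pow_mem h k)]
    rfl
  · rw [IndFun.extendByZero_not_mem H _ h,
      IndFun.extendByZero_not_mem H _ (fun h' => h (mem_of_pow_mem hk h'))]

theorem cj_tr' {N H : Subgroup G} [N.Normal] {θ : N → ℂ} (hinv : ∀ g ∈ H, cj N g θ = θ) (g : H) :
    cj (N.subgroupOf H) g (tr N H θ) = tr N H θ := by
  funext x
  have := congrFun (hinv g g.2) ⟨((x : H) : G), Subgroup.mem_subgroupOf.1 x.2⟩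
  rw [cj_apply, tr, tr, ← this, cj_apply]
  rfl

theorem main [Fintype G] (N : Subgroup G) [hN : N.Normal] [Fintype N] (hidx : Odd N.index) (k : ℕ)
    (hk : Hk G k) (θ : IrrCharacter N) (hθ : Fix k (θ : N → ℂ)) :
    ∃ χ : IrrCharacter G, (classInner (fun n : N => (χ : G → ℂ) n) (θ : N → ℂ) ≠ 0 ∧
      (∀ g : G, (χ : G → ℂ) (g ^ k) = (χ : G → ℂ) g) ∧
      ((∀ g : G, ∀ n : N, (θ : N → ℂ) ⟨g * n * g⁻¹, hN.conj_mem n n.2 g⟩ = (θ : N → ℂ) n) →
        ∀ n : N, (χ : G → ℂ) n = (θ : N → ℂ) n)) ∧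
      ∀ χ' : IrrCharacter G, classInner (fun n : N => (χ' : G → ℂ) n) (θ : N → ℂ) ≠ 0 →
        (∀ g : G, (χ' : G → ℂ) (g ^ k) = (χ' : G → ℂ) g) → χ' = χ := by
  classical
  set T := inertia N (θ : N → ℂ) with hTd
  have hT : ∀ g : G, g ∈ T ↔ cj N g (θ : N → ℂ) = (θ : N → ℂ) := fun g => mem_inertia
  have hNT : N ≤ T := le_inertia θ.2.isClassFunction
  haveI : Fintype T := Fintype.ofFinite T
  haveI : Fintype (N.subgroupOf T) := Fintype.ofFinite _
  obtain ⟨ψ, h1, h2, h3⟩ := ext_inv (hk.sub T) (N.subgroupOf T) (odd_sub hidx) (isIrr_tr hNT θ.2)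
    (fix_tr hθ) (cj_tr' (fun g hg => (hT g).1 hg))
  have hres : resTo N T hNT ψ = (θ : N → ℂ) := by
    funext n
    exact h2 ⟨⟨n, hNT n.2⟩, Subgroup.mem_subgroupOf.2 n.2⟩
  have hin : classInner (resTo N T hNT ψ) (θ : N → ℂ) ≠ 0 := by
    rw [hres, θ.2.classInner_self]; exact one_ne_zero
  obtain ⟨hirr, hmul⟩ := corr_irr hNT θ.2 hT h1 hin
  set χ : IrrCharacter G := ⟨indFun T ψ, hirr⟩ with hχ
  have hover : classInner (fun n : N => (χ : G → ℂ) n) (θ : N → ℂ) ≠ 0 := by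
    show classInner (fun n : N => indFun T ψ n) (θ : N → ℂ) ≠ 0
    rw [hmul]; exact hin
  have hfix : ∀ g : G, (χ : G → ℂ) (g ^ k) = (χ : G → ℂ) g := by
    intro g
    show indFun T ψ (g ^ k) = indFun T ψ g
    rw [← indFun_pow hk.cop]
    have : (fun t : T => ψ (t ^ k)) = ψ := funext h3
    rw [this]
  have huniq : ∀ χ' : IrrCharacter G, classInner (fun n : N => (χ' : G → ℂ) n) (θ : N → ℂ) ≠ 0 →
      (∀ g : G, (χ' : G → ℂ) (g ^ k) = (χ' : G → ℂ) g) → χ' = χ := by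
    intro χ' h4 h5
    obtain ⟨ψ', h6, h7, h8⟩ := corr_surj hNT θ.2 hT χ'.2 h4
    have h9 : classInner (resTo N T hNT ψ') (θ : N → ℂ) ≠ 0 := by rw [h8]; exact h4
    have h10 := resTo_eq_smul hNT h6 θ.2 (fun g hg => (hT g).1 hg) h9
    set c := classInner (resTo N T hNT ψ') (θ : N → ℂ) with hc
    have h11 : IsIrrCharacter T (fun t => ψ' (t ^ k)) := fix_pow_irr (hk.sub T) h6
    have h12 : resTo N T hNT (fun t => ψ' (t ^ k)) = c • (θ : N → ℂ) := by
      funext n
      have h13 := congrFun h10 (n ^ k)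
      have h14 : resTo N T hNT ψ' (n ^ k) = resTo N T hNT (fun t => ψ' (t ^ k)) n := rfl
      rw [← h14, h13, Pi.smul_apply, Pi.smul_apply, hθ n]
    have h13 : (fun t => ψ' (t ^ k)) = ψ' := by
      refine corr_inj hNT θ.2 hT h11 h6 ?_ h9 ?_
      · rw [h12, classInner_smul_left, θ.2.classInner_self, mul_one]
        exact h9
      · funext g
        rw [indFun_pow hk.cop, h7]
        exact h5 g
    have h14 : ψ' = ψ := by
      refine unique (hk.sub T) (N.subgroupOf T) (odd_sub hidx) (isIrr_tr hNT θ.2) h1 h2 h3 h6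
        (fun t => congrFun h13 t) ?_
      have := classInner_resTo T hNT ψ' (θ : N → ℂ)
      have h15 : (fun x => (θ : N → ℂ) (subEquiv N T hNT x)) = tr N T (θ : N → ℂ) := rfl
      rw [h15] at this
      rw [this]
      exact h9
    apply Subtype.ext
    rw [← h7, h14]
  refine ⟨χ, ⟨hover, hfix, ?_⟩, huniq⟩
  intro hinv n
  have hinv' : ∀ g : G, cj N g (θ : N → ℂ) = (θ : N → ℂ) := fun g => funext fun n => hinv g n
  obtain ⟨χ', k1, k2, k3⟩ := ext_inv hk N hidx θ.2 hθ hinv'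
  have h4 := huniq ⟨χ', k1⟩ (by
    have : (fun n : N => χ' n) = (θ : N → ℂ) := funext k2
    show classInner (fun n : N => χ' n) (θ : N → ℂ) ≠ 0
    rw [this, θ.2.classInner_self]
    exact one_ne_zero) k3
  rw [← h4]
  exact k2 n

end Cfsg.Agent.Lib.Bk4519
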