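import Cfsg.Agent.Lib.H76Blk2
import Cfsg.Agent.Lib.BlockCover
import Cfsg.Agent.Lib.StructConst

/-!
# The principal block of a central product over a `p`-group
-/

set_option autoImplicit false
set_option linter.all false

namespace Cfsg.Agent.Lib.Bk4521

open Cfsg Cfsg.Agent.Lib.BlockRing Cfsg.Agent.Lib.BlockGA Cfsg.Agent.Lib.Clifford
open scoped ComplexConjugate

universe u

variable {G : Type u} [Group G]

theorem normal_right {U₁ U₂ : Subgroup G} (hcomm : ∀ u ∈ U₁, ∀ v ∈ U₂, u * v = v * u)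
    (hgen : U₁ ⊔ U₂ = ⊤) : U₂.Normal := by
  have hn : U₁ ≤ Subgroup.normalizer (U₂ : Set G) := by
    intro u hu
    rw [Subgroup.mem_normalizer_iff]
    intro v
    constructor
    · intro hv
      rw [hcomm u hu v hv, mul_inv_cancel_right]; exact hv
    · intro hv
      have h1 := hcomm u⁻¹ (inv_mem hu) _ hv
      have h2 : u⁻¹ * (u * v * u⁻¹) = v * u⁻¹ := by group
      have h3 : v = u * v * u⁻¹ := by
        have h4 : v * u⁻¹ = u * v * u⁻¹ * u⁻¹ := by rw [← h2, h1]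
        exact mul_right_cancel h4
      rw [h3]; exact hv
  have h1 : (⊤ : Subgroup G) ≤ Subgroup.normalizer (U₂ : Set G) := by
    rw [← hgen]; exact sup_le hn Subgroup.le_normalizer
  exact Subgroup.normalizer_eq_top_iff.1 (top_le_iff.1 h1)

theorem normal_left {U₁ U₂ : Subgroup G} (hcomm : ∀ u ∈ U₁, ∀ v ∈ U₂, u * v = v * u)
    (hgen : U₁ ⊔ U₂ = ⊤) : U₁.Normal :=
  normal_right (U₁ := U₂) (U₂ := U₁) (fun u hu v hv => (hcomm v hv u hu).symm) (by rwa [sup_comm])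

theorem exists_factor {U₁ U₂ : Subgroup G} (hcomm : ∀ u ∈ U₁, ∀ v ∈ U₂, u * v = v * u)
    (hgen : U₁ ⊔ U₂ = ⊤) (x : G) : ∃ u ∈ U₁, ∃ v ∈ U₂, x = u * v := by
  haveI := normal_right hcomm hgen
  have hx : x ∈ ((U₁ ⊔ U₂ : Subgroup G) : Set G) := hgen ▸ Subgroup.mem_top x
  rw [Subgroup.mul_normal] at hx
  obtain ⟨u, hu, v, hv, h⟩ := hx
  exact ⟨u, hu, v, hv, h.symm⟩

/-- class sizes: the centralizer of an element of a factor -/
theorem relIndex_eq {U₁ H : Subgroup G} [Finite G] [U₁.Normal] (h : U₁ ⊔ H = ⊤) :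
    H.relIndex U₁ = H.index := by
  have h1 : (U₁ ⊓ H).relIndex H * H.index = (U₁ ⊓ H).index :=
    Subgroup.relIndex_mul_index inf_le_right
  have h2 : (U₁ ⊓ H).relIndex U₁ * U₁.index = (U₁ ⊓ H).index :=
    Subgroup.relIndex_mul_index inf_le_left
  rw [Subgroup.inf_relIndex_right] at h1
  rw [Subgroup.inf_relIndex_left] at h2
  have h3 : U₁.relIndex H = U₁.index := by
    rw [← Subgroup.relIndex_sup_left, h, Subgroup.relIndex_top_right]
  rw [h3] at h1
  have h4 : U₁.index ≠ 0 := Subgroup.index_ne_zero_of_finite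
  have h5 : U₁.index * H.relIndex U₁ = U₁.index * H.index := by
    rw [mul_comm, h2, h1]
  exact Nat.eq_of_mul_eq_mul_left (Nat.pos_of_ne_zero h4) h5

theorem index_inf_eq {U₁ H K : Subgroup G} [Finite G] (h : H.relIndex U₁ = H.index) (hK : U₁ ≤ K) :
    (H ⊓ K).index = H.index * K.index := by
  have h1 : (H ⊓ K).relIndex K * K.index = (H ⊓ K).index :=
    Subgroup.relIndex_mul_index inf_le_right
  rw [Subgroup.inf_relIndex_right] at h1
  have h2 : H.relIndex U₁ ≤ H.relIndex K :=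
    Subgroup.relIndex_le_of_le_right hK (by rw [Subgroup.relIndex]; exact Subgroup.index_ne_zero_of_finite)
  have h3 : H.relIndex K ≤ H.relIndex ⊤ :=
    Subgroup.relIndex_le_of_le_right le_top (by rw [Subgroup.relIndex]; exact Subgroup.index_ne_zero_of_finite)
  rw [Subgroup.relIndex_top_right] at h3
  rw [← h1]
  congr 1
  omega

theorem exists_regular_factor [Finite G] {p : ℕ} (hp : p.Prime) {U₁ U₂ : Subgroup G}
    (hcomm : ∀ u ∈ U₁, ∀ v ∈ U₂, u * v = v * u)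
    (hgen : U₁ ⊔ U₂ = ⊤) (x : G) (hx : ¬ p ∣ orderOf x) :
    ∃ u ∈ U₁, ∃ v ∈ U₂, x = u * v ∧ ¬ p ∣ orderOf u ∧ ¬ p ∣ orderOf v := by
  obtain ⟨u, hu, v, hv, h⟩ := exists_factor hcomm hgen x
  set k := (Nat.card G).factorization p with hk
  have hco : Nat.Coprime (orderOf x) (p ^ k) :=
    Nat.Coprime.pow_right _ (Nat.Coprime.symm ((Nat.Prime.coprime_iff_not_dvd hp).2 hx))
  obtain ⟨n, hn1, hn2⟩ := Nat.chineseRemainder hco 1 0
  have h1 : x ^ n = x := by
    have := pow_eq_pow_iff_modEq.2 hn1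
    rwa [pow_one] at this
  obtain ⟨m, hm⟩ := (Nat.modEq_zero_iff_dvd.1 hn2)
  have hG : Nat.card G = p ^ k * (Nat.card G / p ^ k) := (Nat.ordProj_mul_ordCompl_eq_self _ p).symm
  have hnd : ¬ p ∣ Nat.card G / p ^ k := Nat.not_dvd_ordCompl hp Nat.card_pos.ne'
  have key : ∀ y : G, ¬ p ∣ orderOf (y ^ n) := by
    intro y hy
    apply hnd
    refine hy.trans (orderOf_dvd_of_pow_eq_one ?_)
    rw [← pow_mul, hm]
    have : p ^ k * m * (Nat.card G / p ^ k) = Nat.card G * m := by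
      conv_rhs => rw [hG]
      ring
    rw [this, pow_mul, pow_card_eq_one', one_pow]
  have hc : Commute u v := hcomm u hu v hv
  refine ⟨u ^ n, pow_mem hu n, v ^ n, pow_mem hv n, ?_, key u, key v⟩
  rw [← hc.mul_pow, ← h, h1]

theorem centralizer_mul_eq {p : ℕ} (hp : p.Prime) {U₁ U₂ : Subgroup G} [Finite G]
    (hcomm : ∀ u ∈ U₁, ∀ v ∈ U₂, u * v = v * u)
    (hgen : U₁ ⊔ U₂ = ⊤) (hZ : IsPGroup p ↥(U₁ ⊓ U₂)) {u v : G} (hu : u ∈ U₁) (hv : v ∈ U₂)
    (hup : ¬ p ∣ orderOf u) :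
    Subgroup.centralizer ({u * v} : Set G) =
      Subgroup.centralizer ({u} : Set G) ⊓ Subgroup.centralizer ({v} : Set G) := by
  haveI := normal_right hcomm hgen
  haveI := normal_left hcomm hgen
  have hiff : ∀ (a x : G), x ∈ Subgroup.centralizer ({a} : Set G) ↔ x * a * x⁻¹ = a := by
    intro a x
    rw [Subgroup.mem_centralizer_singleton_iff, mul_inv_eq_iff_eq_mul]
  ext x
  rw [Subgroup.mem_inf, hiff, hiff, hiff]
  constructor
  · intro h
    set a := x * u * x⁻¹ with ha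
    set b := x * v * x⁻¹ with hb
    have haU : a ∈ U₁ := Subgroup.Normal.conj_mem inferInstance u hu x
    have hbU : b ∈ U₂ := Subgroup.Normal.conj_mem inferInstance v hv x
    have hab : a * b = u * v := by
      rw [← h, ha, hb]; group
    have hz : u⁻¹ * a = v * b⁻¹ := by
      rw [inv_mul_eq_iff_eq_mul, ← mul_assoc, ← hab, mul_inv_cancel_right]
    have hz1 : u⁻¹ * a ∈ U₁ ⊓ U₂ := by
      refine Subgroup.mem_inf.2 ⟨mul_mem (inv_mem hu) haU, ?_⟩
      rw [hz]; exact mul_mem hv (inv_mem hbU)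
    obtain ⟨z, hzd⟩ : ∃ z, z = u⁻¹ * a := ⟨_, rfl⟩
    rw [← hzd] at hz1 hz
    have haz : a = u * z := by rw [hzd]; group
    have hcz : Commute u z := hcomm u hu z (Subgroup.mem_inf.1 hz1).2
    have ho : orderOf a = orderOf u := by
      rw [ha]
      exact H76Blk2.orderOf_conj'' x u
    have h2 : z ^ orderOf u = 1 := by
      have h3 : a ^ orderOf u = 1 := by rw [← ho]; exact pow_orderOf_eq_one a
      rw [haz, hcz.mul_pow, pow_orderOf_eq_one, one_mul] at h3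
      exact h3
    obtain ⟨j, hj⟩ := hZ ⟨z, hz1⟩
    have hj' : z ^ p ^ j = 1 := by simpa using congrArg Subtype.val hj
    have hco : Nat.Coprime (orderOf u) (p ^ j) :=
      Nat.Coprime.pow_right _ (Nat.Coprime.symm ((Nat.Prime.coprime_iff_not_dvd hp).2 hup))
    have h5 : orderOf z = 1 :=
      Nat.eq_one_of_dvd_coprimes hco (orderOf_dvd_of_pow_eq_one h2) (orderOf_dvd_of_pow_eq_one hj')
    rw [orderOf_eq_one_iff] at h5
    have h6 : a = u := by rw [haz, h5, mul_one]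
    refine ⟨h6, ?_⟩
    rw [h6] at hab
    exact mul_left_cancel hab
  · rintro ⟨h1, h2⟩
    have : x * (u * v) * x⁻¹ = (x * u * x⁻¹) * (x * v * x⁻¹) := by group
    rw [this, h1, h2]

theorem centralizer_index {U₁ U₂ : Subgroup G} [Finite G]
    (hcomm : ∀ u ∈ U₁, ∀ v ∈ U₂, u * v = v * u)
    (hgen : U₁ ⊔ U₂ = ⊤) {u : G} (hu : u ∈ U₁) :
    (Subgroup.centralizer ({u} : Set G)).relIndex U₁ = (Subgroup.centralizer ({u} : Set G)).index := by
  haveI := normal_left hcomm hgen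
  refine relIndex_eq (top_le_iff.1 ?_)
  rw [← hgen]
  refine sup_le_sup_left ?_ _
  intro v hv
  rw [Subgroup.mem_centralizer_singleton_iff]
  exact (hcomm u hu v hv).symm

theorem centralizer_index' {U₁ U₂ : Subgroup G} [Finite G]
    (hcomm : ∀ u ∈ U₁, ∀ v ∈ U₂, u * v = v * u)
    (hgen : U₁ ⊔ U₂ = ⊤) (u : U₁) :
    (Subgroup.centralizer ({u} : Set U₁)).index = (Subgroup.centralizer ({(u : G)} : Set G)).index := by
  rw [← centralizer_index hcomm hgen u.2, Subgroup.relIndex]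
  congr 1
  ext x
  rw [Subgroup.mem_subgroupOf, Subgroup.mem_centralizer_singleton_iff,
    Subgroup.mem_centralizer_singleton_iff]
  constructor
  · intro h; exact congrArg Subtype.val h
  · intro h; exact Subtype.ext h

/-- product formula -/
theorem char_mul [Fintype G] {U₁ U₂ : Subgroup G} (hcomm : ∀ u ∈ U₁, ∀ v ∈ U₂, u * v = v * u)
    (hgen : U₁ ⊔ U₂ = ⊤) {χ : G → ℂ} (hχ : IsIrrCharacter G χ) {u v : G} (hu : u ∈ U₁)
    (hv : v ∈ U₂) : χ (u * v) = χ u * χ v / χ 1 := by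
  have h1 := StructConst.sum_conj_mul hχ u v
  have h2 : ∀ b : G, χ (u * (b * v * b⁻¹)) = χ (u * v) := by
    intro b
    obtain ⟨b₁, hb₁, b₂, hb₂, rfl⟩ := exists_factor hcomm hgen b
    have e1 : b₁ * b₂ * v * (b₁ * b₂)⁻¹ = b₂ * v * b₂⁻¹ := by
      have h3 : b₁ * (b₂ * v * b₂⁻¹) = (b₂ * v * b₂⁻¹) * b₁ :=
        hcomm b₁ hb₁ _ (mul_mem (mul_mem hb₂ hv) (inv_mem hb₂))
      calc b₁ * b₂ * v * (b₁ * b₂)⁻¹ = (b₁ * (b₂ * v * b₂⁻¹)) * b₁⁻¹ := by group
        _ = b₂ * v * b₂⁻¹ := by rw [h3, mul_inv_cancel_right]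
    have e2 : u * (b₂ * v * b₂⁻¹) = b₂ * (u * v) * b₂⁻¹ := by
      have h3 : u * b₂ = b₂ * u := hcomm u hu b₂ hb₂
      calc u * (b₂ * v * b₂⁻¹) = (u * b₂) * v * b₂⁻¹ := by group
        _ = b₂ * (u * v) * b₂⁻¹ := by rw [h3]; group
    rw [e1, e2, hχ.isClassFunction]
  simp only [h2, Finset.sum_const, Finset.card_univ, nsmul_eq_mul, Nat.card_eq_fintype_card] at h1
  have hG : (Fintype.card G : ℂ) ≠ 0 := by exact_mod_cast Fintype.card_ne_zero
  have h3 : (Fintype.card G : ℂ) * χ (u * v) = (Fintype.card G : ℂ) * (χ u * χ v / χ 1) := by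
    rw [h1]; ring
  exact mul_left_cancel₀ hG h3

theorem centralChar_mul [Fintype G] {p : ℕ} (hp : p.Prime) {U₁ U₂ : Subgroup G}
    (hcomm : ∀ u ∈ U₁, ∀ v ∈ U₂, u * v = v * u)
    (hgen : U₁ ⊔ U₂ = ⊤) (hZ : IsPGroup p ↥(U₁ ⊓ U₂)) {χ : G → ℂ} (hχ : IsIrrCharacter G χ)
    {u v : G} (hu : u ∈ U₁) (hv : v ∈ U₂) (hup : ¬ p ∣ orderOf u) :
    centralChar χ (u * v) = centralChar χ u * centralChar χ v := by
  have h1 : (Subgroup.centralizer ({u * v} : Set G)).index =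
      (Subgroup.centralizer ({u} : Set G)).index * (Subgroup.centralizer ({v} : Set G)).index := by
    rw [centralizer_mul_eq hp hcomm hgen hZ hu hv hup]
    refine index_inf_eq (U₁ := U₁) (centralizer_index hcomm hgen hu) ?_
    intro x hx
    rw [Subgroup.mem_centralizer_singleton_iff]
    exact hcomm x hx v hv
  rw [centralChar, centralChar, centralChar, h1, char_mul hcomm hgen hχ hu hv]
  have := hχ.one_ne_zero
  push_cast
  field_simp

theorem centralChar_res [Fintype G] {U₁ U₂ : Subgroup G} [Fintype U₁]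
    (hcomm : ∀ u ∈ U₁, ∀ v ∈ U₂, u * v = v * u)
    (hgen : U₁ ⊔ U₂ = ⊤) {χ : G → ℂ} (hχ : IsIrrCharacter G χ) {ψ : U₁ → ℂ}
    (hψ : IsIrrCharacter U₁ ψ) (h1 : classInner (fun u : U₁ => χ u) ψ ≠ 0) (u : U₁) :
    centralChar χ (u : G) = centralChar ψ u := by
  haveI := normal_left hcomm hgen
  have hinv : ∀ g : G, cj U₁ g ψ = ψ := by
    intro g
    obtain ⟨b₁, hb₁, b₂, hb₂, rfl⟩ := exists_factor hcomm hgen g
    funext n
    rw [cj_apply]
    have e : (⟨b₁ * b₂ * n * (b₁ * b₂)⁻¹, Subgroup.Normal.conj_mem inferInstance _ n.2 _⟩ : U₁) =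
        ⟨b₁, hb₁⟩ * n * ⟨b₁, hb₁⟩⁻¹ := by
      apply Subtype.ext
      show b₁ * b₂ * n * (b₁ * b₂)⁻¹ = b₁ * n * b₁⁻¹
      have h3 : (n : G) * b₂ = b₂ * n := hcomm n n.2 b₂ hb₂
      calc b₁ * b₂ * n * (b₁ * b₂)⁻¹ = b₁ * (b₂ * n) * b₂⁻¹ * b₁⁻¹ := by group
        _ = b₁ * n * b₁⁻¹ := by rw [← h3]; group
    rw [e, hψ.isClassFunction]
  have h2 := res_eq_smul_of_invariant hχ hψ hinv h1
  set c := classInner (fun u : U₁ => χ u) ψ with hc
  have h3 : χ (u : G) = c * ψ u := congrFun h2 u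
  have h4 : χ 1 = c * ψ 1 := congrFun h2 1
  rw [centralChar, centralChar, centralizer_index' hcomm hgen u, h3, h4]
  have := hψ.one_ne_zero
  field_simp

theorem main [Fintype G] {p : ℕ} {M : Ideal AlgInt} (hM : IsPModular p M) (U₁ U₂ : Subgroup G)
    [Fintype U₁] [Fintype U₂] (hcomm : ∀ u ∈ U₁, ∀ v ∈ U₂, u * v = v * u) (hgen : U₁ ⊔ U₂ = ⊤)
    (hZ : IsPGroup p ↥(U₁ ⊓ U₂)) (χ : IrrCharacter G) (ψ₁ : IrrCharacter U₁)
    (ψ₂ : IrrCharacter U₂) (h₁ : classInner (fun u : U₁ => (χ : G → ℂ) u) (ψ₁ : U₁ → ℂ) ≠ 0)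
    (h₂ : classInner (fun u : U₂ => (χ : G → ℂ) u) (ψ₂ : U₂ → ℂ) ≠ 0) :
    χ ∈ principalBlock M G ↔ (ψ₁ ∈ principalBlock M U₁ ∧ ψ₂ ∈ principalBlock M U₂) := by
  haveI := isPrime hM
  have hp := hM.1
  have hcomm' : ∀ u ∈ U₂, ∀ v ∈ U₁, u * v = v * u := fun u hu v hv => (hcomm v hv u hu).symm
  have hgen' : U₂ ⊔ U₁ = ⊤ := by rwa [sup_comm]
  have r1 : ∀ u : U₁, centralChar (χ : G → ℂ) (u : G) = centralChar (ψ₁ : U₁ → ℂ) u :=
    centralChar_res hcomm hgen χ.2 ψ₁.2 h₁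
  have r2 : ∀ u : U₂, centralChar (χ : G → ℂ) (u : G) = centralChar (ψ₂ : U₂ → ℂ) u :=
    centralChar_res hcomm' hgen' χ.2 ψ₂.2 h₂
  have t1 : ∀ u : U₁, centralChar (fun _ : G => (1 : ℂ)) (u : G) = centralChar (fun _ : U₁ => (1 : ℂ)) u := by
    intro u
    rw [centralChar, centralChar, centralizer_index' hcomm hgen u]
  have t2 : ∀ u : U₂, centralChar (fun _ : G => (1 : ℂ)) (u : G) = centralChar (fun _ : U₂ => (1 : ℂ)) u := by
    intro u
    rw [centralChar, centralChar, centralizer_index' hcomm' hgen' u]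
  constructor
  · intro h
    refine ⟨fun u => ?_, fun u => ?_⟩
    · rw [← t1, ← r1]; exact h u
    · rw [← t2, ← r2]; exact h u
  · rintro ⟨k1, k2⟩
    have key := H76Blk2.sameBlock_of_regular hM
      (χ := (⟨fun _ => 1, CharBasic.isIrrCharacter_fun_one⟩ : IrrCharacter G)) (ψ := χ) ?_
    · exact key
    intro x hx
    obtain ⟨u, hu, v, hv, rfl, hup, hvp⟩ := exists_regular_factor hp hcomm hgen x hx
    have e1 := centralChar_mul hp hcomm hgen hZ χ.2 hu hv hup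
    have e2 := centralChar_mul hp hcomm hgen hZ (CharBasic.isIrrCharacter_fun_one (G := G)) hu hv hup
    show MemLocalIdeal M (centralChar (fun _ : G => (1 : ℂ)) (u * v) - centralChar (χ : G → ℂ) (u * v))
    rw [e1, e2]
    have l1 := t1 ⟨u, hu⟩
    have l2 := t2 ⟨v, hv⟩
    have l3 := r1 ⟨u, hu⟩
    have l4 := r2 ⟨v, hv⟩
    have i1 := k1 ⟨u, hu⟩
    have i2 := k2 ⟨v, hv⟩
    rw [← l1, ← l3] at i1
    rw [← l2, ← l4] at i2
    set a := centralChar (fun _ : G => (1 : ℂ)) u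
    set b := centralChar (fun _ : G => (1 : ℂ)) v
    set c := centralChar (χ : G → ℂ) u
    set d := centralChar (χ : G → ℂ) v
    have hb : MemLocalRing M b := loc_centralChar (CharBasic.isIrrCharacter_fun_one (G := G)) v
    have hc : MemLocalRing M c := loc_centralChar χ.2 u
    have e : a * b - c * d = (a - c) * b + c * (b - d) := by ring
    rw [e]
    exact idl_add (idl_mul_right i1 hb) (idl_mul_left hc i2)

end Cfsg.Agent.Lib.Bk4521
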