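import Cfsg.Agent.Lib.AbPim5
import Cfsg.Agent.Lib.BlockTop
import Cfsg.Agent.Lib.Subsec

/-!
# Automorphisms acting on the projective characters of a block (helper78)

For an automorphism `ν` of `H` and a block `b`, the sum over `θ ∈ b` of `⟨(θ ∘ ν)°, θ⟩` is a natural number:
the trace of `ν` on the span of the projective characters.
-/

set_option autoImplicit false
set_option linter.all false
set_option synthInstance.maxHeartbeats 400000

namespace Cfsg.Agent.Lib.BkPRat

open Cfsg Cfsg.Agent.Lib.BlockRing Cfsg.Agent.Lib.BlockGA Cfsg.Agent.Lib.BlockIdem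
open Cfsg.Agent.Lib.CharBasic Cfsg.Agent.Lib.BlockPair Cfsg.Agent.Lib.BlockCount
open Cfsg.Agent.Lib.Contrib Cfsg.Agent.Lib.AbPim Cfsg.Agent.Lib.BlockTop
open Cfsg.Agent.Lib.Subsec (fs mem_fs sum_fs rsp_expand)
open MonoidAlgebra (single)
open scoped ComplexConjugate

universe u

variable {H : Type u} [Group H]

/-- Transport of the group algebra. -/
noncomputable def am (e : H ≃* H) : GA H →ₐ[ℂ] GA H := MonoidAlgebra.mapDomainAlgHom ℂ ℂ e.toMonoidHom

theorem am_single (e : H ≃* H) (h : H) (a : ℂ) : am e (single h a) = single (e h) a := by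
  show MonoidAlgebra.mapDomain e.toMonoidHom (single h a) = _
  rw [MonoidAlgebra.mapDomain_single]; rfl

theorem lin_am (e : H ≃* H) (χ : H → ℂ) (z : GA H) : lin χ (am e z) = lin (fun h => χ (e h)) z := by
  induction z using MonoidAlgebra.induction_linear with
  | zero => rw [map_zero, lin_zero, lin_zero]
  | add a b ha hb => rw [map_add, lin_add, lin_add, ha, hb]
  | single h a => rw [am_single, lin_single, lin_single]

theorem coeff_am (e : H ≃* H) (z : GA H) (h : H) : (am e z).coeff (e h) = z.coeff h := by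
  show (Finsupp.mapDomain e z.coeff) (e h) = z.coeff h
  exact Finsupp.mapDomain_apply e.injective _ h

theorem locA_am {M : Ideal AlgInt} {e : H ≃* H} {z : GA H} (hz : LocA M z) : LocA M (am e z) := by
  intro g
  obtain ⟨h, rfl⟩ := e.surjective g
  rw [coeff_am]
  exact hz h

theorem am_center {e : H ≃* H} {z : GA H} (hz : z ∈ Subalgebra.center ℂ (GA H)) :
    am e z ∈ Subalgebra.center ℂ (GA H) := by
  rw [Subalgebra.mem_center_iff] at hz ⊢
  intro w
  have h1 : w = am e (am e.symm w) := by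
    induction w using MonoidAlgebra.induction_linear with
    | zero => rw [map_zero, map_zero]
    | add a b ha hb => rw [map_add, map_add, ← ha, ← hb]
    | single h a => rw [am_single, am_single, MulEquiv.apply_symm_apply]
  rw [h1, ← map_mul, ← map_mul, hz]

section fin

variable [Finite H]

theorem am_eB {e : H ≃* H} {B : Set (IrrCharacter H)} (he : ∀ χ : IrrCharacter H, cmp e χ ∈ B ↔ χ ∈ B) :
    am e (eB B) = eB B := by
  apply center_ext (am_center (eB_mem_center B)) (eB_mem_center B)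
  intro χ
  have h1 : omega (χ : H → ℂ) (am e (eB B)) = omega (cmp e χ : H → ℂ) (eB B) := by
    unfold omega
    rw [lin_am]
    congr 1
    show (χ : H → ℂ) 1 = (χ : H → ℂ) (e 1)
    rw [map_one]
  rw [h1]
  by_cases h : χ ∈ B
  · rw [omega_eB_mem h, omega_eB_mem ((he χ).2 h)]
  · rw [omega_eB_not_mem h, omega_eB_not_mem (fun h' => h ((he χ).1 h'))]

theorem BId_am {M : Ideal AlgInt} [M.IsMaximal] {e : H ≃* H} {B : Set (IrrCharacter H)}
    (he : ∀ χ : IrrCharacter H, cmp e χ ∈ B ↔ χ ∈ B) {E : GA H} (hE : BId M B E) : BId M B (am e E) :=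
  ⟨locA_am hE.loc, by rw [← map_mul, hE.idem], by
    conv_lhs => rw [← am_eB he, ← map_mul, hE.le]⟩

variable {M : Ideal AlgInt} [hMm : M.IsMaximal] {B : Set (IrrCharacter H)} {p : ℕ} {hB : IsPBlock M B}

/-- The projective characters under an automorphism. -/
theorem Ph_comp (P : PD hB) {e : H ≃* H} (he : ∀ χ : IrrCharacter H, cmp e χ ∈ B ↔ χ ∈ B) (j : Fin P.n) (y : H) :
    P.Ph j (e.symm y) = ∑ i, (P.r (am e (P.F j)) i : ℂ) * P.Ph i y := by
  classical
  have := Fintype.ofFinite H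
  have h1 : P.Ph j (e.symm y) = ∑ ψ : IrrCharacter H, lin (ψ : H → ℂ) (am e (P.F j)) * (ψ : H → ℂ) y := by
    rw [PD.Ph, Finset.sum_apply]
    refine (Fintype.sum_equiv (cmp e) _ _ fun ψ => ?_).symm
    rw [Pi.smul_apply, smul_eq_mul, lin_am, cmp_apply, MulEquiv.apply_symm_apply]
    rfl
  rw [h1]
  have h2 : ∀ ψ : IrrCharacter H, lin (ψ : H → ℂ) (am e (P.F j)) =
      ∑ i, (P.r (am e (P.F j)) i : ℂ) * lin (ψ : H → ℂ) (P.F i) := fun ψ => P.lin_eq (BId_am he (P.hF j)) ψ
  have h3 : ∀ i, P.Ph i y = ∑ ψ : IrrCharacter H, lin (ψ : H → ℂ) (P.F i) * (ψ : H → ℂ) y := by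
    intro i
    rw [PD.Ph, Finset.sum_apply]
    rfl
  simp only [h2, h3, Finset.mul_sum, Finset.sum_mul]
  rw [Finset.sum_comm]
  refine Finset.sum_congr rfl fun i _ => Finset.sum_congr rfl fun ψ _ => ?_
  ring

theorem inner_Ph (P : PD hB) [Fintype H] (i : Fin P.n) (χ : IrrCharacter H) :
    classInner (P.Ph i) (χ : H → ℂ) = lin (χ : H → ℂ) (P.F i) := by
  classical
  rw [PD.Ph, classInner_sum_left, Finset.sum_eq_single χ]
  · rw [classInner_smul_left, irr_orthonormal, if_pos rfl, mul_one]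
  · intro ψ _ hψ
    rw [classInner_smul_left, irr_orthonormal, if_neg hψ, mul_zero]
  · intro h; exact absurd (Finset.mem_univ _) h

theorem span_Ph (hM : IsPModular p M) (P : PD hB) :
    rsp p B = Submodule.span ℂ (Set.range P.Ph) ∧ LinearIndependent ℂ P.Ph := by
  classical
  have := Fintype.ofFinite H
  have h1 := P.rsp_le hM
  have h2 : Module.finrank ℂ (rsp p B) = P.n := by rw [P.n_eq hM, blockRank_eq]
  have h3 := finrank_range_le_card (R := ℂ) P.Ph
  rw [Fintype.card_fin] at h3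
  have h3' : Module.finrank ℂ (Submodule.span ℂ (Set.range P.Ph)) ≤ Module.finrank ℂ (rsp p B) := by
    rw [h2]; exact h3
  have h4 := Submodule.eq_of_le_of_finrank_le h1 h3'
  refine ⟨h4, ?_⟩
  rw [linearIndependent_iff_card_le_finrank_span, Fintype.card_fin]
  have h5 : P.n = Module.finrank ℂ (Submodule.span ℂ (Set.range P.Ph)) := by rw [← h4, h2]
  exact h5.le

theorem preg_comp {e : H ≃* H} (f : H → ℂ) (y : H) : preg p (fun y => f (e y)) y = preg p f (e y) := by
  unfold preg
  rw [e.orderOf_eq]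

/-- The trace of an automorphism on the `p`-regular functions of a block. -/
theorem tau_nat_aux (hM : IsPModular p M) [Fintype H] (P : PD hB) {ν : H ≃* H}
    (he : ∀ χ : IrrCharacter H, cmp ν.symm χ ∈ B ↔ χ ∈ B) :
    ∑ θ ∈ fs B, classInner (preg p (fun y => (θ : H → ℂ) (ν y))) (θ : H → ℂ) =
      ((∑ i, P.r (am ν.symm (P.F i)) i : ℕ) : ℂ) := by
  classical
  obtain ⟨hsp, hli⟩ := span_Ph hM P
  have h1 : ∀ θ : IrrCharacter H, ∃ c : Fin P.n → ℂ, θ ∈ B → preg p (θ : H → ℂ) = ∑ j, c j • P.Ph j := by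
    intro θ
    by_cases hθ : θ ∈ B
    · have h2 : preg p (θ : H → ℂ) ∈ rsp p B := Submodule.subset_span ⟨θ, hθ, rfl⟩
      rw [hsp, Submodule.mem_span_range_iff_exists_fun] at h2
      obtain ⟨c, hc⟩ := h2
      exact ⟨c, fun _ => hc.symm⟩
    · exact ⟨0, fun h => absurd h hθ⟩
  choose c hc using h1
  have hPh : ∀ i, P.Ph i ∈ rsp p B := fun i => by rw [hsp]; exact Submodule.subset_span ⟨i, rfl⟩
  -- the delta relation
  have hdel : ∀ i j, ∑ θ ∈ fs B, lin (θ : H → ℂ) (P.F i) * c θ j = if i = j then 1 else 0 := by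
    intro i
    have h2 : P.Ph i = ∑ j, (∑ θ ∈ fs B, lin (θ : H → ℂ) (P.F i) * c θ j) • P.Ph j := by
      have h3 : P.Ph i = ∑ θ ∈ fs B, lin (θ : H → ℂ) (P.F i) • preg p (θ : H → ℂ) := by
        funext y
        rw [Finset.sum_apply]
        by_cases hy : p ∣ orderOf y
        · rw [rsp_reg (hPh i) hy]
          symm
          apply Finset.sum_eq_zero
          intro θ _
          rw [Pi.smul_apply, preg, if_pos hy, smul_zero]
        · have h4 := congrFun (rsp_expand hM hB (hPh i)) y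
          rw [h4, Finset.sum_apply]
          refine Finset.sum_congr rfl fun θ _ => ?_
          rw [Pi.smul_apply, Pi.smul_apply, inner_Ph, preg, if_neg hy]
      rw [h3]
      have h5 : ∀ θ ∈ fs B, lin (θ : H → ℂ) (P.F i) • preg p (θ : H → ℂ) =
          ∑ j, (lin (θ : H → ℂ) (P.F i) * c θ j) • P.Ph j := by
        intro θ hθ
        rw [hc θ (mem_fs.1 hθ), Finset.smul_sum]
        exact Finset.sum_congr rfl fun j _ => smul_smul _ _ _
      rw [Finset.sum_congr rfl h5, Finset.sum_comm]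
      exact Finset.sum_congr rfl fun j _ => (Finset.sum_smul).symm
    have h6 : ∑ j, ((∑ θ ∈ fs B, lin (θ : H → ℂ) (P.F i) * c θ j) - (if i = j then 1 else 0)) • P.Ph j = 0 := by
      simp only [sub_smul, Finset.sum_sub_distrib]
      rw [← h2, sub_eq_zero]
      simp
    intro j
    have h7 := Fintype.linearIndependent_iff.1 hli _ h6 j
    exact sub_eq_zero.1 h7
  -- the sum
  have h2 : ∀ θ ∈ fs B, classInner (preg p (fun y => (θ : H → ℂ) (ν y))) (θ : H → ℂ) =
      ∑ i, ∑ j, (P.r (am ν.symm (P.F j)) i : ℂ) * (lin (θ : H → ℂ) (P.F i) * c θ j) := by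
    intro θ hθ
    have h3 : preg p (fun y => (θ : H → ℂ) (ν y)) =
        ∑ j, c θ j • ∑ i, (P.r (am ν.symm (P.F j)) i : ℂ) • P.Ph i := by
      funext y
      rw [preg_comp, hc θ (mem_fs.1 hθ), Finset.sum_apply, Finset.sum_apply]
      refine Finset.sum_congr rfl fun j _ => ?_
      rw [Pi.smul_apply, Pi.smul_apply, Finset.sum_apply]
      have h4 := Ph_comp P he j y
      rw [MulEquiv.symm_symm] at h4
      rw [h4]
      rfl
    rw [h3, classInner_sum_left]
    rw [Finset.sum_comm]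
    refine Finset.sum_congr rfl fun j _ => ?_
    rw [classInner_smul_left, classInner_sum_left, Finset.mul_sum]
    refine Finset.sum_congr rfl fun i _ => ?_
    rw [classInner_smul_left, inner_Ph]
    ring
  rw [Finset.sum_congr rfl h2, Finset.sum_comm]
  push_cast
  refine Finset.sum_congr rfl fun i _ => ?_
  rw [Finset.sum_comm]
  have h3 : ∀ j, ∑ θ ∈ fs B, (P.r (am ν.symm (P.F j)) i : ℂ) * (lin (θ : H → ℂ) (P.F i) * c θ j) =
      (P.r (am ν.symm (P.F j)) i : ℂ) * if i = j then 1 else 0 := by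
    intro j
    rw [← Finset.mul_sum, hdel]
  rw [Finset.sum_congr rfl fun j _ => h3 j]
  simp

end fin

theorem tau_nat [Finite H] [Fintype H] {M : Ideal AlgInt} {p : ℕ} (hM : IsPModular p M)
    {B : Set (IrrCharacter H)} (hB : IsPBlock M B) (ν : H ≃* H) :
    ∃ n : ℕ, ∑ θ ∈ fs B, classInner (preg p (fun y => (θ : H → ℂ) (ν y))) (θ : H → ℂ) = n := by
  classical
  have hMm : M.IsMaximal := hM.2.1
  have := isPrime hM
  by_cases h : ∃ θ ∈ B, cmp ν θ ∈ B
  · obtain ⟨θ, hθ, hθ'⟩ := h
    have h1 : ∀ χ : IrrCharacter H, cmp ν χ ∈ B ↔ χ ∈ B := by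
      intro χ
      constructor
      · intro h
        have h2 : SameBlock M (cmp ν θ : H → ℂ) (cmp ν χ : H → ℂ) := sameBlock_of_mem hB hθ' h
        exact mem_of_sameBlock hB hθ ((sameBlock_cmp ν).1 h2)
      · intro h
        have h2 : SameBlock M (θ : H → ℂ) (χ : H → ℂ) := sameBlock_of_mem hB hθ h
        exact mem_of_sameBlock hB hθ' ((sameBlock_cmp ν).2 h2)
    have h2 : ∀ χ : IrrCharacter H, cmp ν.symm χ ∈ B ↔ χ ∈ B := by
      intro χ
      rw [← h1]
      have : cmp ν (cmp ν.symm χ) = χ := by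
        apply Subtype.ext
        funext y
        rw [cmp_apply, cmp_apply, MulEquiv.symm_apply_apply]
      rw [this]
    obtain ⟨P⟩ := exists_PD hB
    exact ⟨_, tau_nat_aux hM P h2⟩
  · push_neg at h
    refine ⟨0, ?_⟩
    rw [Nat.cast_zero]
    apply Finset.sum_eq_zero
    intro θ hθ
    have h1 := contrib_eq_zero hM (cmp ν θ) θ (fun hs => h θ (mem_fs.1 hθ)
      (mem_of_sameBlock hB (mem_fs.1 hθ) (sameBlock_symm hs)))
    rw [contrib_eq_classInner] at h1
    exact h1

/-- The same for unions of blocks. -/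
theorem tau_nat_union [Finite H] [Fintype H] {M : Ideal AlgInt} {p : ℕ} (hM : IsPModular p M)
    {B : Set (IrrCharacter H)} (hB : UnionOfBlocks M B) (ν : H ≃* H) :
    ∃ n : ℕ, ∑ θ ∈ fs B, classInner (preg p (fun y => (θ : H → ℂ) (ν y))) (θ : H → ℂ) = n := by
  classical
  have := isPrime hM
  have := Fintype.ofFinite (Bl M H)
  choose n hn using fun b : Bl M H => tau_nat hM b.2 ν
  have h1 : ∀ b : Bl M H, (fs B).filter (fun θ : IrrCharacter H => (⟨blockOf M (θ : H → ℂ), isPBlock_blockOf θ⟩ : Bl M H) = b) =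
      if (fs b.1 ⊆ fs B) then fs b.1 else ∅ := by
    intro b
    have h2 : ∀ θ : IrrCharacter H, ((⟨blockOf M (θ : H → ℂ), isPBlock_blockOf θ⟩ : Bl M H) = b) ↔ θ ∈ b.1 := by
      intro θ
      constructor
      · intro h; rw [← h]; exact mem_blockOf_self θ
      · intro h; exact Subtype.ext (block_eq_of_mem (isPBlock_blockOf θ) b.2 (mem_blockOf_self θ) h)
    ext θ
    rw [Finset.mem_filter, h2]
    split_ifs with h
    · constructor
      · intro h3; exact mem_fs.2 h3.2
      · intro h3; exact ⟨h h3, mem_fs.1 h3⟩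
    · constructor
      · rintro ⟨h3, h4⟩
        exfalso
        apply h
        intro ψ hψ
        rw [mem_fs] at h3 hψ ⊢
        exact hB θ h3 ψ (sameBlock_of_mem b.2 h4 hψ)
      · intro h3; exact absurd h3 (Finset.notMem_empty θ)
  refine ⟨∑ b : Bl M H, if (fs b.1 ⊆ fs B) then n b else 0, ?_⟩
  rw [← Finset.sum_fiberwise (fs B) (fun θ : IrrCharacter H => (⟨blockOf M (θ : H → ℂ), isPBlock_blockOf θ⟩ : Bl M H))]
  push_cast
  refine Finset.sum_congr rfl fun b _ => ?_
  rw [h1]
  split_ifs with h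
  · exact hn b
  · rw [Finset.sum_empty]

end Cfsg.Agent.Lib.BkPRat
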