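import Mathlib
import Cfsg.Agent.Lib.BlockFirst
import Cfsg.Agent.Lib.BlockThird
import Cfsg.Agent.Lib.BlockTransfer

set_option autoImplicit false
set_option linter.all false

/-!
# Deficiency classes
-/

namespace Cfsg.Agent.Lib.DefClassR

open Cfsg Cfsg.Agent.Lib.BlockRing Cfsg.Agent.Lib.BlockGA Cfsg.Agent.Lib.BlockIdem
open Cfsg.Agent.Lib.BlockDefect

universe u

variable {G : Type u} [Group G] [Finite G] {p : ℕ} [hp : Fact p.Prime] {M : Ideal AlgInt}

theorem defect_le (hM : IsPModular p M) {H : Subgroup G} {b : Set (IrrCharacter H)} {B : Set (IrrCharacter G)}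
    (hind : IsInducedBlock M H b B) : blockDefect p b ≤ blockDefect p B := by
  obtain ⟨D, hD⟩ := exists_defectGroup hM hind.1
  obtain ⟨E, hE⟩ := exists_defectGroup hM hind.2.1
  obtain ⟨x, hx⟩ := BlockFirst.exists_conj_le hM hind hD hE
  have h1 := Subgroup.card_dvd_of_le hx
  rw [Subgroup.card_map_of_injective H.subtype_injective,
    Subgroup.card_map_of_injective (MulAut.conj x).injective, defectGroup_card hM hind.1 hD,
    defectGroup_card hM hind.2.1 hE] at h1
  exact (Nat.pow_dvd_pow_iff_le_right hp.out.one_lt).1 h1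

theorem le_defect (hM : IsPModular p M) {P H : Subgroup G} (hP : IsPGroup p P)
    (hPH : P ≤ H) (hHN : H ≤ Subgroup.normalizer (P : Set G)) {b : Set (IrrCharacter H)}
    (hb : IsPBlock M b) {d : ℕ} (hd : Nat.card P = p ^ d) : d ≤ blockDefect p b := by
  obtain ⟨D, hD⟩ := exists_defectGroup hM hb
  have h1 := Subgroup.card_dvd_of_le (BlockFirst.subgroupOf_le_defectGroup hM hP hPH hHN hb hD)
  rw [defectGroup_card hM hb hD, Nat.card_congr (Subgroup.subgroupOfEquivOfLe hPH).toEquiv, hd] at h1
  exact (Nat.pow_dvd_pow_iff_le_right hp.out.one_lt).1 h1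

omit [Finite G] in
theorem zpowers_data (y : G) : Subgroup.centralizer ((Subgroup.zpowers y : Subgroup G) : Set G) = Subgroup.centralizer ({y} : Set G) := by
  apply le_antisymm
  · apply Subgroup.centralizer_le
    intro x hx
    rw [Set.mem_singleton_iff.1 hx]
    exact Subgroup.mem_zpowers y
  · intro g hg
    rw [Subgroup.mem_centralizer_singleton_iff] at hg
    rw [Subgroup.mem_centralizer_iff]
    rintro _ ⟨n, rfl⟩
    have h1 : Commute y g := hg.symm
    exact (h1.zpow_left n).eq

theorem isPGroup_zpowers {y : G} (hy : ∃ k : ℕ, orderOf y = p ^ k) : IsPGroup p (Subgroup.zpowers y) := by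
  obtain ⟨k, hk⟩ := hy
  apply IsPGroup.of_card (n := k)
  rw [Nat.card_zpowers, hk]

theorem induced_centralizer (hM : IsPModular p M) {y : G} (hy : ∃ k : ℕ, orderOf y = p ^ k)
    {b : Set (IrrCharacter (Subgroup.centralizer ({y} : Set G)))} (hb : IsPBlock M b) :
    ∃ B : Set (IrrCharacter G), IsInducedBlock M (Subgroup.centralizer ({y} : Set G)) b B := by
  have hZ := isPGroup_zpowers hy
  have h1 := zpowers_data y
  apply BlockHom.inducedBlockDefined hM hZ ?_ h1.le ?_ hb
  · rw [Subgroup.zpowers_le, Subgroup.mem_centralizer_singleton_iff]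
  · rw [← h1]
    exact Subgroup.centralizer_le_normalizer _

theorem down (hM : IsPModular p M) (r : ℕ)
    (h : ∀ B' : Set (IrrCharacter G), IsPBlock M B' → B' ≠ principalBlock M G → blockDefect p B' < r)
    (y : G) (hy : ∃ k : ℕ, orderOf y = p ^ k) (B' : Set (IrrCharacter (Subgroup.centralizer ({y} : Set G))))
    (hB' : IsPBlock M B') (hne : B' ≠ principalBlock M (Subgroup.centralizer ({y} : Set G))) :
    blockDefect p B' < r := by
  obtain ⟨B, hB⟩ := induced_centralizer hM hy hB'
  have h1 : B ≠ principalBlock M G := fun h2 => hne ((BlockThird.induced_principal_iff hM hB).2 h2)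
  exact lt_of_le_of_lt (defect_le hM hB) (h B hB.2.1 h1)

theorem up (hM : IsPModular p M) (r : ℕ) (hr : 0 < r)
    (h : ∀ y : G, orderOf y = p → ∀ B' : Set (IrrCharacter (Subgroup.centralizer ({y} : Set G))),
      IsPBlock M B' → B' ≠ principalBlock M (Subgroup.centralizer ({y} : Set G)) → blockDefect p B' < r)
    (B : Set (IrrCharacter G)) (hB : IsPBlock M B) (hne : B ≠ principalBlock M G) : blockDefect p B < r := by
  classical
  have hMp := isPrime hM
  by_contra hcon
  push Not at hcon
  obtain ⟨D, hD⟩ := exists_defectGroup hM hB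
  have hDp : IsPGroup p D := defectGroup_isPGroup hD
  have hDcard := defectGroup_card hM hB hD
  -- an element of order `p` in the centre of `D`
  have hnt : Nontrivial D := by
    rw [← Finite.one_lt_card_iff_nontrivial, hDcard]
    exact Nat.one_lt_pow (by omega) hp.out.one_lt
  have hZnt : Nontrivial (Subgroup.center D) := hDp.center_nontrivial
  have hZp : p ∣ Nat.card (Subgroup.center D) := by
    have h1 : IsPGroup p (Subgroup.center D) := hDp.to_subgroup _
    obtain ⟨n, hn⟩ := IsPGroup.iff_card.1 h1
    have h2 : 1 < Nat.card (Subgroup.center D) := Finite.one_lt_card_iff_nontrivial.2 hZnt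
    rw [hn] at h2 ⊢
    refine dvd_pow_self p ?_
    rintro rfl
    rw [pow_zero] at h2
    exact lt_irrefl _ h2
  obtain ⟨z, hz⟩ := exists_prime_orderOf_dvd_card' p hZp
  set y : G := ((z : D) : G) with hydef
  have hy : orderOf y = p := by
    rw [hydef, Subgroup.orderOf_coe, Subgroup.orderOf_coe, hz]
  set C := Subgroup.centralizer ({y} : Set G) with hCdef
  -- the block of `D C(D)`
  obtain ⟨g, hg, P', hP'⟩ := id hD
  have hgC : g ∈ Subgroup.centralizer (D : Set G) := by
    rw [Subgroup.mem_centralizer_iff]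
    intro x hx
    have hx' : x ∈ D := hx
    rw [hP'] at hx'
    obtain ⟨y, -, rfl⟩ := hx'
    exact Subgroup.mem_centralizer_singleton_iff.1 y.2
  set H₀ : Subgroup G := D ⊔ Subgroup.centralizer (D : Set G) with hH₀
  have hDH : D ≤ H₀ := le_sup_left
  have hCH : Subgroup.centralizer (D : Set G) ≤ H₀ := le_sup_right
  have hHN : H₀ ≤ Subgroup.normalizer (D : Set G) := sup_le Subgroup.le_normalizer (Subgroup.centralizer_le_normalizer _)
  obtain ⟨e, he⟩ := BlockFirst.exists_inducing_block hM hDp hDH hCH hHN hB hgC hg.2.1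
  have hyD : y ∈ D := (z : D).2
  have hyZ : ∀ x ∈ D, x * y = y * x := by
    intro x hx
    have h1 := Subgroup.mem_center_iff.1 z.2 ⟨x, hx⟩
    exact congrArg Subtype.val h1
  have hHC : H₀ ≤ C := by
    apply sup_le
    · intro x hx
      rw [hCdef, Subgroup.mem_centralizer_singleton_iff]
      exact hyZ x hx
    · exact Subgroup.centralizer_le (Set.singleton_subset_iff.2 hyD)
  -- the block of `C`
  have he' : IsPBlock M (BlockTransfer.trB (BlockTransfer.subE hHC) e) := BlockTransfer.isPBlock_tr he.1
  have hDC : D ≤ C := hDH.trans hHC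
  obtain ⟨b, hb⟩ := BlockHom.inducedBlockDefined (G := C) (P := D.subgroupOf C) (H := H₀.subgroupOf C) hM
    (hDp.comap_of_injective C.subtype C.subtype_injective) (Subgroup.comap_mono hDH) (by
      intro x hx
      rw [Subgroup.mem_subgroupOf]
      apply hCH
      rw [Subgroup.mem_centralizer_iff] at hx ⊢
      intro w hw
      exact congrArg Subtype.val (hx ⟨w, hDC hw⟩ (Subgroup.mem_subgroupOf.mpr hw))) (by
      intro x hx
      rw [Subgroup.mem_subgroupOf] at hx
      have h1 := Subgroup.mem_normalizer_iff.1 (hHN hx)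
      rw [Subgroup.mem_normalizer_iff]
      intro w
      exact h1 w) he'
  obtain ⟨B₁, hB₁⟩ := induced_centralizer hM ⟨1, by rw [hy, pow_one]⟩ hb.2.1
  have h2 := BlockTransfer.isInducedBlock_trans hHC hb hB₁
  have h3 : B = B₁ := BlockInd.induced_unique he h2
  subst h3
  have hbne : b ≠ principalBlock M C := fun h4 => hne ((BlockThird.induced_principal_iff hM hB₁).1 h4)
  have h4 := h y hy b hb.2.1 hbne
  have h5 := defect_le hM hb
  have h6 : blockDefect p B ≤ blockDefect p (BlockTransfer.trB (BlockTransfer.subE hHC) e) := by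
    apply le_defect (G := C) hM (P := D.subgroupOf C) (hDp.comap_of_injective C.subtype C.subtype_injective)
      (Subgroup.comap_mono hDH) ?_ he'
    · rw [Nat.card_congr (Subgroup.subgroupOfEquivOfLe hDC).toEquiv, hDcard]
    · intro x hx
      have hx : (x : G) ∈ H₀ := hx
      have h1 := Subgroup.mem_normalizer_iff.1 (hHN hx)
      rw [Subgroup.mem_normalizer_iff]
      intro w
      exact h1 w
  omega

end Cfsg.Agent.Lib.DefClassR
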