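import Cfsg.Agent.Lib.H16XC

/-!
# Extraspecial Sylow 3-subgroups of order 27 and exponent 3: passage to the centralizer of the centre (helper16)
-/

set_option autoImplicit false
set_option linter.all false

namespace Cfsg.Agent.Lib.H16XA

open Cfsg

variable {G : Type*} [Group G] {P : Sylow 3 G} {z : G}

abbrev Cn (z : G) : Subgroup G := Subgroup.centralizer ({z} : Set G)

/-- `z` as an element of its centralizer -/
def zL (z : G) : Cn z := ⟨z, Subgroup.mem_centralizer_singleton_iff.2 rfl⟩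

theorem XD.le_Cn (h : XD P z) : (P : Subgroup G) ≤ Cn z :=
  fun y hy => Subgroup.mem_centralizer_singleton_iff.2 (h.cen y hy).symm

theorem mem_zpL {x : Cn z} : x ∈ Subgroup.zpowers (zL z) ↔ (x : G) ∈ Subgroup.zpowers z := by
  constructor
  · rintro ⟨k, rfl⟩
    exact ⟨k, by simp [zL]⟩
  · rintro ⟨k, hk⟩
    exact ⟨k, Subtype.ext (by simpa [zL] using hk)⟩

/-- the Sylow subgroup of the centralizer -/
noncomputable abbrev XD.PL (h : XD P z) : Sylow 3 (Cn z) := P.subtype h.le_Cn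

theorem XD.mem_PL (h : XD P z) {x : Cn z} : x ∈ (h.PL : Subgroup (Cn z)) ↔ (x : G) ∈ (P : Subgroup G) := Iff.rfl

theorem XD.cent (h : XD P z) : XD h.PL (zL z) where
  card := by
    rw [← h.card]
    exact Nat.card_congr (Subgroup.subgroupOfEquivOfLe h.le_Cn).toEquiv
  exp x hx := Subtype.ext (h.exp x hx)
  zP := h.zP
  z1 := fun h1 => h.z1 (congrArg Subtype.val h1)
  cen y hy := Subtype.ext (h.cen y hy)
  cenZ x hx hy := by
    rw [mem_zpL]
    exact h.cenZ x hx fun y hyP => congrArg Subtype.val (hy ⟨y, h.le_Cn hyP⟩ hyP)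
  comm x hx y hy := by
    rw [mem_zpL]
    exact h.comm x hx y hy
  nc g _ := Subtype.ext (Subgroup.mem_centralizer_singleton_iff.1 g.2)

theorem XD.isConj_L [Finite G] (h : XD P z) {u x : Cn z} (hu : (u : G) ∈ (P : Subgroup G))
    (hu' : (u : G) ∉ Subgroup.zpowers z) (hx : (x : G) ∈ (P : Subgroup G)) (hc : IsConj (u : G) (x : G)) :
    IsConj u x := by
  obtain ⟨g, hg⟩ := isConj_iff.1 hc
  obtain ⟨n, hn, hnu⟩ := h.fusion hu hu' hx hg
  exact isConj_iff.2 ⟨⟨n, Subgroup.mem_centralizer_singleton_iff.2 (h.nc n hn)⟩, Subtype.ext hnu⟩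

theorem isConj_of_L {u x : Cn z} (hc : IsConj u x) : IsConj (u : G) (x : G) := by
  obtain ⟨g, hg⟩ := isConj_iff.1 hc
  exact isConj_iff.2 ⟨g, congrArg Subtype.val hg⟩

/-- the representatives in the centralizer -/
noncomputable def XL (z : G) (X : Finset G) [Finite G] : Finset (Cn z) :=
  haveI := Fintype.ofFinite (Cn z)
  haveI : DecidableEq G := Classical.decEq _
  Finset.univ.filter (fun y : Cn z => (y : G) ∈ X)

theorem mem_XL [Finite G] {X : Finset G} {x : Cn z} : x ∈ XL z X ↔ (x : G) ∈ X := by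
  simp [XL]

theorem XS.cent [Finite G] {X : Finset G} (h : XS P z X) : XS h.toXD.PL (zL z) (XL z X) where
  toXD := h.toXD.cent
  sub x hx := by
    rw [mem_XL] at hx
    obtain ⟨h1, h2⟩ := h.sub x hx
    exact ⟨h1, fun h3 => h2 (mem_zpL.1 h3)⟩
  rep u hu hu' := by
    rw [mem_zpL] at hu'
    obtain ⟨x, ⟨hx, hc⟩, huniq⟩ := h.rep u hu hu'
    obtain ⟨hxP, hxz⟩ := h.sub x hx
    refine ⟨⟨x, h.toXD.le_Cn hxP⟩, ⟨mem_XL.2 hx, h.toXD.isConj_L hu hu' hxP hc⟩, ?_⟩
    rintro y ⟨hy, hyc⟩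
    exact Subtype.ext (huniq y ⟨mem_XL.1 hy, isConj_of_L hyc⟩)
  real u hu hu' := by
    rw [mem_zpL] at hu'
    exact h.toXD.isConj_L hu hu' ((P : Subgroup G).inv_mem hu) (h.real u hu hu')

theorem XS.card_XL [Finite G] {X : Finset G} (h : XS P z X) : (XL z X).card = X.card := by
  classical
  refine Finset.card_bij (fun y _ => (y : G)) (fun y hy => mem_XL.1 hy) (fun y _ y' _ h1 => Subtype.ext h1) ?_
  intro x hx
  exact ⟨⟨x, h.toXD.le_Cn (h.sub x hx).1⟩, mem_XL.2 hx, rfl⟩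

/-! ### derivation of the data -/

theorem XD.of_extraspecial (P : Sylow 3 G) (hE : Cfsg.IsExtraspecial 3 ↥(P : Subgroup G))
    (h27 : Nat.card ↥(P : Subgroup G) = 27) (hexp : ∀ x ∈ (P : Subgroup G), x ^ 3 = 1)
    (hNC : ∀ g ∈ Subgroup.normalizer ((P : Subgroup G) : Set G), ∀ z ∈ (P : Subgroup G),
      (∀ y ∈ (P : Subgroup G), z * y = y * z) → g * z = z * g) : ∃ z : G, XD P z := by
  haveI : Fact (Nat.Prime 3) := ⟨Nat.prime_three⟩
  have hc3 : Nat.card (Subgroup.center (P : Subgroup G)) = 3 := hE.2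
  haveI : Finite (Subgroup.center (P : Subgroup G)) := Nat.finite_of_card_ne_zero (by rw [hc3]; norm_num)
  obtain ⟨w, hw⟩ := exists_prime_orderOf_dvd_card' (G := Subgroup.center (P : Subgroup G)) 3 (by rw [hc3])
  have hgen : ∀ x : Subgroup.center (P : Subgroup G), x ∈ Subgroup.zpowers w := by
    have h1 : Subgroup.zpowers w = ⊤ := by
      apply Subgroup.eq_top_of_card_eq
      rw [Nat.card_zpowers, hw, hc3]
    intro x
    rw [h1]; trivial
  have hmemz : ∀ x : (P : Subgroup G), x ∈ Subgroup.center (P : Subgroup G) →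
      (x : G) ∈ Subgroup.zpowers ((w : (P : Subgroup G)) : G) := by
    intro x hx
    obtain ⟨k, hk⟩ := hgen ⟨x, hx⟩
    refine ⟨k, ?_⟩
    have := congrArg (fun y : Subgroup.center (P : Subgroup G) => ((y : (P : Subgroup G)) : G)) hk
    simpa using this
  have hcen : ∀ y ∈ (P : Subgroup G), ((w : (P : Subgroup G)) : G) * y = y * ((w : (P : Subgroup G)) : G) := by
    intro y hy
    have := Subgroup.mem_center_iff.1 w.2 ⟨y, hy⟩
    exact (congrArg Subtype.val this).symm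
  refine ⟨((w : (P : Subgroup G)) : G), h27, hexp, (w : (P : Subgroup G)).2, ?_, hcen, ?_, ?_, ?_⟩
  · intro h1
    have h2 : w = 1 := Subtype.ext (Subtype.ext h1)
    rw [h2, orderOf_one] at hw
    omega
  · intro x hx hxy
    refine hmemz ⟨x, hx⟩ ?_
    rw [Subgroup.mem_center_iff]
    intro y
    exact Subtype.ext (hxy y y.2).symm
  · intro x hx y hy
    refine hmemz (⟨x, hx⟩ * ⟨y, hy⟩ * ⟨x, hx⟩⁻¹ * ⟨y, hy⟩⁻¹) ?_
    rw [← hE.1.2.2]
    exact Subgroup.commutator_mem_commutator (Subgroup.mem_top _) (Subgroup.mem_top _)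
  · intro g hg
    exact hNC g hg _ (w : (P : Subgroup G)).2 hcen

end Cfsg.Agent.Lib.H16XA
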