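import Cfsg.Agent.Lib.H25BpI
import Cfsg.Agent.Lib.BlockOrth
import Cfsg.Agent.Lib.SubsecCount
import Cfsg.Agent.Lib.DefClassR
import Cfsg.Agent.Lib.BlockSection
import Cfsg.Agent.Lib.H16XD

/-!
# Contributions of sections to the principal block (helper16)
-/

set_option autoImplicit false
set_option linter.all false

namespace Cfsg.Agent.Lib.H16XE

open Cfsg Cfsg.Agent.Lib Cfsg.Agent.Lib.BlockRing Cfsg.Agent.Lib.BlockGA Cfsg.Agent.Lib.BlockIdem
open Cfsg.Agent.Lib.BlockPair Cfsg.Agent.Lib.Contrib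
open Cfsg.Agent.Lib.CharBasic Cfsg.Agent.Lib.H25BpI
open Cfsg.Agent.Lib.Subsec (Cz mem_Cz fs mem_fs sum_fs al al_eq)
open scoped ComplexConjugate

universe u

variable {p : ℕ} [hp : Fact p.Prime] {M : Ideal AlgInt} {G : Type u} [Group G] [Finite G]

/-- section sum -/
noncomputable def J (p : ℕ) {G : Type u} [Group G] [Finite G] (u : G) (F : G → ℂ) : ℂ :=
  haveI := Fintype.ofFinite (Cz u)
  ∑ s : Cz u, if p ∣ orderOf s then 0 else F (u * (s : G))

omit hp in
theorem J_eq (u : G) [Fintype (Cz u)] (F : G → ℂ) :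
    J p u F = ∑ s : Cz u, if p ∣ orderOf s then 0 else F (u * (s : G)) := by
  unfold J
  congr!

theorem sum_eq_J [Fintype G] (F : G → ℂ) : ∑ g : G, F g = ∑ u ∈ PE p G, J p u F := by
  classical
  rw [sum_sections (p := p)]
  refine Finset.sum_congr rfl fun u _ => ?_
  rw [J_eq]

omit hp in
theorem J_conj {F : G → ℂ} (hF : IsClassFunction G F) (u g : G) : J p (g * u * g⁻¹) F = J p u F := by
  have := Fintype.ofFinite (Cz u)
  have := Fintype.ofFinite (Cz (g * u * g⁻¹))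
  rw [J_eq, J_eq]
  symm
  have hmem : ∀ s : Cz u, g * (s : G) * g⁻¹ ∈ Cz (g * u * g⁻¹) := by
    intro s
    rw [mem_Cz]
    have := mem_Cz.1 s.2
    show g * u * g⁻¹ * (g * s * g⁻¹) = g * s * g⁻¹ * (g * u * g⁻¹)
    calc g * u * g⁻¹ * (g * s * g⁻¹) = g * (u * s) * g⁻¹ := by group
      _ = g * (s * u) * g⁻¹ := by rw [this.eq]
      _ = _ := by group
  have hmem' : ∀ s : Cz (g * u * g⁻¹), g⁻¹ * (s : G) * g ∈ Cz u := by
    intro s
    rw [mem_Cz]
    have := mem_Cz.1 s.2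
    show u * (g⁻¹ * s * g) = g⁻¹ * s * g * u
    calc u * (g⁻¹ * s * g) = g⁻¹ * ((g * u * g⁻¹) * s) * g := by group
      _ = g⁻¹ * (s * (g * u * g⁻¹)) * g := by rw [this.eq]
      _ = _ := by group
  refine Fintype.sum_equiv ⟨fun s => ⟨_, hmem s⟩, fun s => ⟨_, hmem' s⟩, ?_, ?_⟩ _ _ ?_
  · intro s; apply Subtype.ext; simp only; group
  · intro s; apply Subtype.ext; simp only; group
  · intro s
    have h1 : orderOf (⟨g * (s : G) * g⁻¹, hmem s⟩ : Cz (g * u * g⁻¹)) = orderOf s := by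
      rw [← Subgroup.orderOf_coe, ← Subgroup.orderOf_coe]
      exact orderOf_injective (MulAut.conj g).toMonoidHom (MulAut.conj g).injective (s : G)
    simp only [Equiv.coe_fn_mk]
    rw [h1]
    split_ifs
    · rfl
    · rw [show g * u * g⁻¹ * (g * (s : G) * g⁻¹) = g * (u * s) * g⁻¹ by group, hF]

omit hp in
theorem J_inv (u : G) (F : G → ℂ) : J p u⁻¹ F = J p u (fun g => F g⁻¹) := by
  have := Fintype.ofFinite (Cz u)
  have := Fintype.ofFinite (Cz u⁻¹)
  rw [J_eq, J_eq]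
  have hmem : ∀ s : Cz u⁻¹, (s : G)⁻¹ ∈ Cz u := by
    intro s
    rw [mem_Cz]
    have := mem_Cz.1 s.2
    exact (Commute.inv_left_iff.1 this).inv_right
  have hmem' : ∀ s : Cz u, (s : G)⁻¹ ∈ Cz u⁻¹ := by
    intro s
    rw [mem_Cz]
    have := mem_Cz.1 s.2
    exact (Commute.inv_left this).inv_right
  refine Fintype.sum_equiv ⟨fun s => ⟨_, hmem s⟩, fun s => ⟨_, hmem' s⟩, ?_, ?_⟩ _ _ ?_
  · intro s; apply Subtype.ext; simp
  · intro s; apply Subtype.ext; simp
  · intro s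
    have h1 : orderOf (⟨(s : G)⁻¹, hmem s⟩ : Cz u) = orderOf s := by
      rw [← Subgroup.orderOf_coe, ← Subgroup.orderOf_coe, orderOf_inv]
    simp only [Equiv.coe_fn_mk]
    rw [h1]
    split_ifs
    · rfl
    · congr 1
      rw [mul_inv_rev, inv_inv]
      exact (mem_Cz.1 s.2).eq

/-- number of conjugates times the order of the centralizer -/
theorem card_conj_mul (x : G) : Nat.card {u : G // IsConj u x} * Nat.card (Cz x) = Nat.card G := by
  classical
  have h1 : Nat.card {u : G // IsConj u x} = (Cz x).index := by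
    have h2 := H16XA.card_conj_set (⊤ : Subgroup G) x
    rw [top_inf_eq, Subgroup.relIndex_top_right] at h2
    rw [← h2]
    apply Nat.card_congr
    apply Equiv.subtypeEquivRight
    intro y
    constructor
    · intro h
      obtain ⟨c, hc⟩ := isConj_iff.1 h.symm
      exact ⟨c, Subgroup.mem_top _, hc⟩
    · rintro ⟨k, -, hk⟩
      exact (isConj_iff.2 ⟨k, hk⟩ : IsConj x y).symm
  rw [h1, mul_comm]
  exact (Cz x).card_mul_index

/-- averages in terms of representatives of the classes of `p`-elements -/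
theorem avg_rep [Fintype G] {F : G → ℂ} (hF : IsClassFunction G F) {R : Finset G}
    (hR : ∀ x ∈ R, ∃ k : ℕ, orderOf x = p ^ k)
    (hrep : ∀ g : G, (∃ k : ℕ, orderOf g = p ^ k) → ∃! x, x ∈ R ∧ IsConj g x) :
    (Nat.card G : ℂ)⁻¹ * ∑ g : G, F g = ∑ x ∈ R, (Nat.card (Cz x) : ℂ)⁻¹ * J p x F := by
  classical
  have hG : (Nat.card G : ℂ) ≠ 0 := Nat.cast_ne_zero.mpr Nat.card_pos.ne'
  rw [sum_eq_J (p := p)]
  have h1 : ∑ u ∈ PE p G, J p u F = ∑ x ∈ R, ∑ u ∈ (PE p G).filter (fun u => IsConj u x), J p u F := by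
    rw [← Finset.sum_biUnion]
    · apply Finset.sum_congr _ fun _ _ => rfl
      ext u
      rw [Finset.mem_biUnion]
      constructor
      · intro hu
        obtain ⟨x, ⟨hx, hc⟩, -⟩ := hrep u (mem_PE.1 hu)
        exact ⟨x, hx, Finset.mem_filter.2 ⟨hu, hc⟩⟩
      · rintro ⟨x, hx, hu⟩
        exact (Finset.mem_filter.1 hu).1
    · intro x hx y hy hxy
      rw [Function.onFun, Finset.disjoint_left]
      intro u hu hu'
      obtain ⟨h2, h3⟩ := Finset.mem_filter.1 hu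
      obtain ⟨w, -, hw⟩ := hrep u (mem_PE.1 h2)
      exact hxy ((hw x ⟨hx, h3⟩).trans (hw y ⟨hy, (Finset.mem_filter.1 hu').2⟩).symm)
  rw [h1, Finset.mul_sum]
  refine Finset.sum_congr rfl fun x hx => ?_
  have h2 : ∀ u ∈ (PE p G).filter (fun u => IsConj u x), J p u F = J p x F := by
    intro u hu
    obtain ⟨c, hc⟩ := isConj_iff.1 (Finset.mem_filter.1 hu).2.symm
    rw [← hc, J_conj hF]
  rw [Finset.sum_congr rfl h2, Finset.sum_const, nsmul_eq_mul]
  have h3 : ((PE p G).filter (fun u => IsConj u x)).card = Nat.card {u : G // IsConj u x} := by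
    rw [Nat.card_eq_fintype_card, Fintype.card_subtype]
    congr 1
    ext u
    rw [Finset.mem_filter, mem_PE]
    simp only [Finset.mem_filter, Finset.mem_univ, true_and]
    refine ⟨fun h => h.2, fun h => ⟨?_, h⟩⟩
    obtain ⟨k, hk⟩ := hR x hx
    exact ⟨k, by rw [BlockCount.orderOf_isConj h, hk]⟩
  rw [h3]
  have h4 := card_conj_mul x
  have h5 : (Nat.card (Cz x) : ℂ) ≠ 0 := Nat.cast_ne_zero.mpr Nat.card_pos.ne'
  have h6 : (Nat.card G : ℂ) = (Nat.card {u : G // IsConj u x} : ℂ) * (Nat.card (Cz x) : ℂ) := by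
    exact_mod_cast h4.symm
  have h7 : (Nat.card {u : G // IsConj u x} : ℂ) ≠ 0 := by
    intro h8; rw [h8, zero_mul] at h6; exact hG h6
  rw [h6]
  field_simp

/-- the contribution of the section of `u` -/
noncomputable def cn (p : ℕ) {G : Type u} [Group G] [Finite G] (u : G) (χ ψ : G → ℂ) : ℂ :=
  (Nat.card (Cz u) : ℂ)⁻¹ * J p u (fun g => χ g * conj (ψ g))

omit hp in
theorem classFun_mul {χ ψ : G → ℂ} (hχ : IsClassFunction G χ) (hψ : IsClassFunction G ψ) :
    IsClassFunction G (fun g => χ g * conj (ψ g)) := by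
  intro g h
  simp only
  rw [hχ, hψ]

theorem inner_rep [Fintype G] {χ ψ : G → ℂ} (hχ : IsClassFunction G χ) (hψ : IsClassFunction G ψ) {R : Finset G}
    (hR : ∀ x ∈ R, ∃ k : ℕ, orderOf x = p ^ k)
    (hrep : ∀ g : G, (∃ k : ℕ, orderOf g = p ^ k) → ∃! x, x ∈ R ∧ IsConj g x) :
    classInner χ ψ = ∑ x ∈ R, cn p x χ ψ := by
  unfold classInner cn
  exact avg_rep (classFun_mul hχ hψ) hR hrep

omit hp in
theorem cn_conj (u : G) (χ ψ : G → ℂ) : conj (cn p u χ ψ) = cn p u ψ χ := by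
  have := Fintype.ofFinite (Cz u)
  unfold cn
  rw [J_eq, J_eq, map_mul, map_inv₀, Complex.conj_natCast, map_sum]
  congr 1
  refine Finset.sum_congr rfl fun s _ => ?_
  split_ifs
  · simp
  · rw [map_mul, Complex.conj_conj]; ring

omit hp in
theorem card_Cz_inv (u : G) : Nat.card (Cz u⁻¹) = Nat.card (Cz u) := by
  have : Cz u⁻¹ = Cz u := by
    ext g
    rw [mem_Cz, mem_Cz]
    exact Commute.inv_left_iff
  rw [this]

omit hp in
theorem cn_inv (u : G) (χ ψ : IrrCharacter G) :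
    cn p u⁻¹ (χ : G → ℂ) (ψ : G → ℂ) = cn p u (ψ : G → ℂ) (χ : G → ℂ) := by
  unfold cn
  rw [J_inv, card_Cz_inv]
  congr 2
  funext g
  rw [χ.2.inv, ψ.2.inv, Complex.conj_conj]; ring

/-- contributions of different sections are orthogonal -/
theorem cn_cross (hM : IsPModular p M) {B : Set (IrrCharacter G)} (hB : IsPBlock M B) {u v : G}
    (hu : ∃ k : ℕ, orderOf u = p ^ k) (hv : ∃ k : ℕ, orderOf v = p ^ k) (huv : ¬ IsConj u v)
    (χ θ : G → ℂ) : ∑ ψ ∈ fs B, cn p u χ (ψ : G → ℂ) * cn p v (ψ : G → ℂ) θ = 0 := by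
  have := Fintype.ofFinite (Cz u)
  have := Fintype.ofFinite (Cz v)
  have key : ∀ s : Cz u, ∀ t : Cz v, ¬ p ∣ orderOf s → ¬ p ∣ orderOf t →
      ∑ ψ ∈ fs B, (ψ : G → ℂ) (v * (t : G)) * conj ((ψ : G → ℂ) (u * (s : G))) = 0 := by
    intro s t hs ht
    have h1 := BlockOrth.block_orthogonality hM hB (g := v * (t : G)) (h := u * (s : G)) (u := v) (v := u)
      ⟨t, rfl, mem_Cz.1 t.2, hv, by rwa [Subgroup.orderOf_coe]⟩
      ⟨s, rfl, mem_Cz.1 s.2, hu, by rwa [Subgroup.orderOf_coe]⟩ (fun h => huv h.symm)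
    rw [finsum_mem_eq_finite_toFinset_sum _ (Set.toFinite _)] at h1
    rw [← h1]
    refine Finset.sum_congr rfl fun ψ _ => ?_
    rw [ψ.2.inv]
  have h2 : ∀ ψ : IrrCharacter G, cn p u χ (ψ : G → ℂ) * cn p v (ψ : G → ℂ) θ =
      (Nat.card (Cz u) : ℂ)⁻¹ * (Nat.card (Cz v) : ℂ)⁻¹ * ∑ s : Cz u, ∑ t : Cz v,
        (if p ∣ orderOf s then 0 else if p ∣ orderOf t then 0 else
          χ (u * (s : G)) * conj (θ (v * (t : G))) *
            ((ψ : G → ℂ) (v * (t : G)) * conj ((ψ : G → ℂ) (u * (s : G))))) := by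
    intro ψ
    unfold cn
    rw [J_eq, J_eq, mul_mul_mul_comm, Finset.sum_mul_sum]
    congr 1
    refine Finset.sum_congr rfl fun s _ => Finset.sum_congr rfl fun t _ => ?_
    split_ifs
    · ring
    · ring
    · ring
    · ring
  simp only [h2]
  rw [← Finset.mul_sum, Finset.sum_comm]
  rw [Finset.sum_eq_zero, mul_zero]
  intro s _
  rw [Finset.sum_comm]
  refine Finset.sum_eq_zero fun t _ => ?_
  split_ifs with hs ht
  · simp
  · simp
  · rw [← Finset.mul_sum, key s t hs ht, mul_zero]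

/-- contributions are idempotent -/
theorem cn_idem (hM : IsPModular p M) {B : Set (IrrCharacter G)} (hB : IsPBlock M B) {R : Finset G}
    (hR : ∀ x ∈ R, ∃ k : ℕ, orderOf x = p ^ k)
    (hrep : ∀ g : G, (∃ k : ℕ, orderOf g = p ^ k) → ∃! x, x ∈ R ∧ IsConj g x) {x : G} (hx : x ∈ R)
    (χ : G → ℂ) {θ : IrrCharacter G} (hθ : θ ∈ B) :
    ∑ ψ ∈ fs B, cn p x χ (ψ : G → ℂ) * cn p x (ψ : G → ℂ) (θ : G → ℂ) = cn p x χ (θ : G → ℂ) := by
  classical
  have := Fintype.ofFinite G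
  have h1 : ∑ ψ ∈ fs B, cn p x χ (ψ : G → ℂ) * classInner (ψ : G → ℂ) (θ : G → ℂ) = cn p x χ (θ : G → ℂ) := by
    rw [Finset.sum_eq_single θ]
    · rw [irr_orthonormal, if_pos rfl, mul_one]
    · intro ψ _ hψ
      rw [irr_orthonormal, if_neg hψ, mul_zero]
    · intro h; exact absurd (mem_fs.2 hθ) h
  have h3 : ∑ ψ ∈ fs B, cn p x χ (ψ : G → ℂ) * classInner (ψ : G → ℂ) (θ : G → ℂ) =
      ∑ ψ ∈ fs B, ∑ y ∈ R, cn p x χ (ψ : G → ℂ) * cn p y (ψ : G → ℂ) (θ : G → ℂ) :=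
    Finset.sum_congr rfl fun ψ _ => by
      rw [inner_rep (p := p) ψ.2.isClassFunction θ.2.isClassFunction hR hrep, Finset.mul_sum]
  rw [← h1, h3, Finset.sum_comm, Finset.sum_eq_single x]
  · intro y hy hyx
    apply cn_cross hM hB (hR x hx) (hR y hy)
    intro hc
    obtain ⟨w, -, hw⟩ := hrep x (hR x hx)
    exact hyx ((hw y ⟨hy, hc⟩).trans (hw x ⟨hx, IsConj.refl x⟩).symm)
  · intro h; exact absurd hx h

end Cfsg.Agent.Lib.H16XE
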