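import Cfsg.Agent.Lib.BkPRat1
import Cfsg.Agent.Lib.H16XE
import Cfsg.Agent.Lib.CharGalois

/-!
# `p`-rational characters of a block (helper78)
-/

set_option autoImplicit false
set_option linter.all false
set_option synthInstance.maxHeartbeats 400000

namespace Cfsg.Agent.Lib.BkPRat

open Cfsg Cfsg.Agent.Lib.BlockRing Cfsg.Agent.Lib.BlockGA Cfsg.Agent.Lib.BlockIdem
open Cfsg.Agent.Lib.CharBasic Cfsg.Agent.Lib.BlockPair Cfsg.Agent.Lib.BlockCount
open Cfsg.Agent.Lib.Contrib Cfsg.Agent.Lib.BlockTop Cfsg.Agent.Lib.BlockSecond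
open Cfsg.Agent.Lib.Subsec (fs mem_fs sum_fs rsp_expand Cz mem_Cz trace_contrib)
open Cfsg.Agent.Lib.H16XE (J J_eq sum_eq_J)
open Cfsg.Agent.Lib.H25BpI (PE mem_PE)
open MonoidAlgebra (single)
open scoped ComplexConjugate

universe u

variable {G : Type u} [Group G] [Finite G] {p : ℕ} {M : Ideal AlgInt}

/-- The characters of the centralizer in blocks inducing `B`. -/
def indSet (M : Ideal AlgInt) (u : G) (B : Set (IrrCharacter G)) : Set (IrrCharacter (Cz u)) :=
  {ψ | IsInducedBlock M (Cz u) (blockOf M (ψ : Cz u → ℂ)) B}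

omit [Finite G] in
theorem blockOf_eq_iff [M.IsPrime] {ψ : IrrCharacter G} {b : Bl M G} :
    blockOf M (ψ : G → ℂ) = b.1 ↔ ψ ∈ b.1 := by
  constructor
  · intro h; rw [← h]; exact mem_blockOf_self ψ
  · intro h; exact block_eq_of_mem (isPBlock_blockOf ψ) b.2 (mem_blockOf_self ψ) h

omit [Finite G] in
theorem indSet_union [M.IsPrime] (u : G) (B : Set (IrrCharacter G)) : UnionOfBlocks M (indSet M u B) := by
  intro ψ hψ ψ' h
  have h1 : blockOf M (ψ' : Cz u → ℂ) = blockOf M (ψ : Cz u → ℂ) :=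
    (blockOf_eq_iff (b := ⟨_, isPBlock_blockOf ψ⟩)).2 h
  show IsInducedBlock M (Cz u) (blockOf M (ψ' : Cz u → ℂ)) B
  rw [h1]
  exact hψ

open scoped Classical in
theorem eB_indSet [M.IsPrime] (u : G) (B : Set (IrrCharacter G)) [Fintype (Bl M (Cz u))] :
    eB (indSet M u B) = ∑ b : Bl M (Cz u), if IsInducedBlock M (Cz u) b.1 B then eB b.1 else 0 := by
  have hc : ∀ b : Bl M (Cz u), (if IsInducedBlock M (Cz u) b.1 B then eB b.1 else 0) ∈
      Subalgebra.center ℂ (GA (Cz u)) := by
    intro b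
    split_ifs
    · exact eB_mem_center _
    · exact Subalgebra.zero_mem _
  apply center_ext (eB_mem_center _) (Subalgebra.sum_mem _ fun b _ => hc b)
  intro ψ
  have h1 : omega (ψ : Cz u → ℂ) (∑ b : Bl M (Cz u), if IsInducedBlock M (Cz u) b.1 B then eB b.1 else 0) =
      ∑ b : Bl M (Cz u), if IsInducedBlock M (Cz u) b.1 B then omega (ψ : Cz u → ℂ) (eB b.1) else 0 := by
    unfold omega
    rw [lin_sum, Finset.sum_div]
    refine Finset.sum_congr rfl fun b _ => ?_
    split_ifs
    · rfl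
    · rw [lin_zero, zero_div]
  rw [h1, Finset.sum_eq_single (⟨blockOf M (ψ : Cz u → ℂ), isPBlock_blockOf ψ⟩ : Bl M (Cz u))]
  · simp only
    rw [omega_eB_mem (mem_blockOf_self ψ)]
    split_ifs with h
    · exact omega_eB_mem h
    · exact omega_eB_not_mem h
  · intro b _ hb
    split_ifs
    · apply omega_eB_not_mem
      intro h
      exact hb (Subtype.ext (blockOf_eq_iff.2 h).symm)
    · rfl
  · intro h; exact absurd (Finset.mem_univ _) h

/-- Inner products of section columns. -/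
theorem section_kern (hM : IsPModular p M) {B : Set (IrrCharacter G)} (hB : IsPBlock M B) {u : G} {k : ℕ}
    (hu : orderOf u = p ^ k) {y y' : Cz u} (hy : ¬ p ∣ orderOf y) (hy' : ¬ p ∣ orderOf y') :
    ∑ χ ∈ fs B, (χ : G → ℂ) (u * (y : G)) * conj ((χ : G → ℂ) (u * (y' : G))) =
      ∑ ψ ∈ fs (indSet M u B), (ψ : Cz u → ℂ) y * conj ((ψ : Cz u → ℂ) y') := by
  classical
  have := isPrime hM
  have := Fintype.ofFinite (Bl M (Cz u))
  have hy1 : ¬ p ∣ orderOf (y : G) := by rwa [Subgroup.orderOf_coe]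
  have hcy : Commute u (y : G) := mem_Cz.1 y.2
  have h := BlockSection.section_sum hM hu (H := Cz u) (fun g => mem_Cz) (indSet_union u B) (B := B) hy hy' ?_ ?_
  · rwa [finsum_mem_eq_finite_toFinset_sum _ (Set.toFinite B),
      finsum_mem_eq_finite_toFinset_sum _ (Set.toFinite (indSet M u B))] at h
  · intro χ hχ
    have h1 : (1 : GA (Cz u)) = eB (indSet M u B) +
        ∑ b : Bl M (Cz u), if IsInducedBlock M (Cz u) b.1 B then 0 else eB b.1 := by
      rw [eB_indSet, ← Finset.sum_add_distrib, ← sum_eB_blocks (M := M)]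
      refine Finset.sum_congr rfl fun b _ => ?_
      split_ifs <;> simp
    have h2 : lin (χ : G → ℂ) (single (u * (y : G)) 1 * incH (Cz u) 1) = (χ : G → ℂ) (u * (y : G)) := by
      rw [map_one, mul_one, lin_single, one_mul]
    rw [← h2, h1]
    rw [map_add, mul_add, lin_add, map_sum, Finset.mul_sum, lin_sum, Finset.sum_eq_zero, add_zero]
    intro b _
    split_ifs with h3
    · rw [map_zero, mul_zero, lin_zero]
    · exact second_main hM hu hy1 hcy (fun g => mem_Cz) b.2 hB h3 hχ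
  · intro χ hχ
    rw [eB_indSet, map_sum, Finset.mul_sum, lin_sum, Finset.sum_eq_zero]
    intro b _
    split_ifs with h3
    · exact second_main_idem hM h3 hu hy1 hcy (fun g hg => mem_Cz.2 hg) hχ
    · rw [map_zero, mul_zero, lin_zero]

end Cfsg.Agent.Lib.BkPRat
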