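import Cfsg.Agent.Lib.BkPRat2

/-!
# `p`-rational characters of a block: the count (helper78)
-/

set_option autoImplicit false
set_option linter.all false
set_option synthInstance.maxHeartbeats 400000

namespace Cfsg.Agent.Lib.BkPRat

open Cfsg Cfsg.Agent.Lib.BlockRing Cfsg.Agent.Lib.BlockGA Cfsg.Agent.Lib.BlockIdem
open Cfsg.Agent.Lib.CharBasic Cfsg.Agent.Lib.BlockPair Cfsg.Agent.Lib.BlockCount
open Cfsg.Agent.Lib.Contrib Cfsg.Agent.Lib.BlockTop Cfsg.Agent.Lib.BlockSecond
open Cfsg.Agent.Lib.Subsec (fs mem_fs sum_fs rsp_expand Cz mem_Cz trace_contrib)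
open Cfsg.Agent.Lib.H16XE (J J_eq sum_eq_J)
open Cfsg.Agent.Lib.H25BpI (PE mem_PE)
open MonoidAlgebra (single)
open scoped ComplexConjugate

universe u

variable {G : Type u} [Group G] [Finite G] {p : ℕ} {M : Ideal AlgInt}

/-- `k` fixes the elements of order prime to `p`. -/
structure KK (p : ℕ) (G : Type u) [Group G] (k : ℕ) : Prop where
  cop : Nat.Coprime k (Nat.card G)
  one : k ≡ 1 [MOD Nat.card G / p ^ (Nat.card G).factorization p]

theorem KK.pow_reg {k : ℕ} (hk : KK p G k) (hp : p.Prime) {s : G} (hs : ¬ p ∣ orderOf s) : s ^ k = s := by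
  have h1 : orderOf s ∣ Nat.card G / p ^ (Nat.card G).factorization p := by
    have h2 : orderOf s ∣ p ^ (Nat.card G).factorization p * (Nat.card G / p ^ (Nat.card G).factorization p) := by
      rw [Nat.ordProj_mul_ordCompl_eq_self]
      exact orderOf_dvd_natCard s
    exact (Nat.Coprime.pow_right _ ((Nat.Prime.coprime_iff_not_dvd hp).2 hs).symm).dvd_of_dvd_mul_left h2
  have h3 := (pow_eq_pow_iff_modEq (x := s)).2 (hk.one.of_dvd h1)
  rwa [pow_one] at h3

/-- the kernel function -/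
noncomputable def FF (B : Set (IrrCharacter G)) (k : ℕ) (g : G) : ℂ :=
  ∑ χ ∈ fs B, (χ : G → ℂ) (g ^ k) * conj ((χ : G → ℂ) g)

theorem J_nat [hp : Fact p.Prime] (hM : IsPModular p M) {B : Set (IrrCharacter G)} (hB : IsPBlock M B) {k : ℕ}
    (hk : KK p G k) {u : G} (hu : ∃ m : ℕ, orderOf u = p ^ m) : ∃ n : ℕ, J p u (FF B k) = n := by
  classical
  have := isPrime hM
  have := Fintype.ofFinite G
  have := Fintype.ofFinite (Cz u)
  obtain ⟨m, hm⟩ := hu
  have hcop : (orderOf u).Coprime k := (hk.cop.coprime_dvd_right (orderOf_dvd_natCard u)).symm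
  have hs : ∀ s : Cz u, ¬ p ∣ orderOf s → (u * (s : G)) ^ k = u ^ k * s := by
    intro s hs
    rw [(mem_Cz.1 s.2).mul_pow, hk.pow_reg (s := (s : G)) hM.1 (by rwa [Subgroup.orderOf_coe])]
  rw [J_eq]
  by_cases hc : IsConj u (u ^ k)
  · obtain ⟨c, hc⟩ := isConj_iff.1 hc
    obtain ⟨l, hl⟩ : ∃ l : ℕ, (u ^ k) ^ l = u := exists_pow_eq_self_of_coprime hcop.symm
    have hm1 : ∀ y : Cz u, c⁻¹ * (y : G) * c ∈ Cz u := by
      intro y
      rw [mem_Cz]
      have h1 : Commute (c * u * c⁻¹) (y : G) := by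
        rw [hc]; exact (mem_Cz.1 y.2).pow_left k
      have h2 := h1.map (MulAut.conj c⁻¹).toMonoidHom
      have h3 : c⁻¹ * (c * (u * c⁻¹)) * c = u := by group
      simpa [mul_assoc] using h2
    have hm2 : ∀ y : Cz u, c * (y : G) * c⁻¹ ∈ Cz u := by
      intro y
      rw [mem_Cz]
      have h2 := (mem_Cz.1 y.2).map (MulAut.conj c).toMonoidHom
      have h3 : Commute (c * u * c⁻¹) (c * (y : G) * c⁻¹) := by simpa using h2
      rw [hc] at h3
      have h4 := h3.pow_left l
      rwa [hl] at h4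
    let ν : Cz u ≃* Cz u :=
      { toFun := fun y => ⟨c⁻¹ * (y : G) * c, hm1 y⟩
        invFun := fun y => ⟨c * (y : G) * c⁻¹, hm2 y⟩
        left_inv := fun y => Subtype.ext (by show c * (c⁻¹ * (y : G) * c) * c⁻¹ = y; group)
        right_inv := fun y => Subtype.ext (by show c⁻¹ * (c * (y : G) * c⁻¹) * c = y; group)
        map_mul' := fun y z => Subtype.ext (by
          show c⁻¹ * ((y : G) * z) * c = c⁻¹ * (y : G) * c * (c⁻¹ * (z : G) * c); group) }
    have hν : ∀ y : Cz u, ((ν y : Cz u) : G) = c⁻¹ * (y : G) * c := fun _ => rfl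
    obtain ⟨n, hn⟩ := tau_nat_union hM (indSet_union (M := M) u B) ν
    refine ⟨Nat.card (Cz u) * n, ?_⟩
    have h1 : ∀ s : Cz u, (if p ∣ orderOf s then (0 : ℂ) else FF B k (u * (s : G))) =
        ∑ ψ ∈ fs (indSet M u B), preg p (fun y => (ψ : Cz u → ℂ) (ν y)) s * conj ((ψ : Cz u → ℂ) s) := by
      intro s
      split_ifs with h
      · symm
        apply Finset.sum_eq_zero
        intro ψ _
        rw [preg, if_pos h, zero_mul]
      · have h2 : ¬ p ∣ orderOf (ν s) := by rwa [ν.orderOf_eq]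
        have h3 := section_kern hM hB hm h2 h
        have h4 : FF B k (u * (s : G)) = ∑ χ ∈ fs B, (χ : G → ℂ) (u * ((ν s : Cz u) : G)) *
            conj ((χ : G → ℂ) (u * (s : G))) := by
          unfold FF
          refine Finset.sum_congr rfl fun χ _ => ?_
          congr 1
          rw [hs s h, ← hc, hν]
          have h5 := χ.2.isClassFunction (c * u * c⁻¹ * (s : G)) c⁻¹
          rw [← h5]
          congr 1
          group
        rw [h4, h3]
        refine Finset.sum_congr rfl fun ψ _ => ?_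
        rw [preg, if_neg h]
    rw [Finset.sum_congr rfl fun s _ => h1 s, Finset.sum_comm]
    push_cast
    rw [← hn, Finset.mul_sum]
    refine Finset.sum_congr rfl fun ψ _ => ?_
    rw [classInner_def, ← mul_assoc, mul_inv_cancel₀, one_mul]
    exact Nat.cast_ne_zero.2 Nat.card_pos.ne'
  · refine ⟨0, ?_⟩
    rw [Nat.cast_zero]
    apply Finset.sum_eq_zero
    intro s _
    split_ifs with h
    · rfl
    · have h1 : IsPPart p (u ^ k * (s : G)) (u ^ k) := by
        refine ⟨s, rfl, (mem_Cz.1 s.2).pow_left k, ?_, by rwa [Subgroup.orderOf_coe]⟩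
        exact ⟨m, by rw [Nat.Coprime.orderOf_pow hcop, hm]⟩
      have h2 : IsPPart p (u * (s : G)) u :=
        ⟨s, rfl, mem_Cz.1 s.2, ⟨m, hm⟩, by rwa [Subgroup.orderOf_coe]⟩
      have h3 := BlockOrth.block_orthogonality hM hB h1 h2 (fun h => hc h.symm)
      rw [finsum_mem_eq_finite_toFinset_sum _ (Set.toFinite B)] at h3
      rw [← h3]
      unfold FF
      refine Finset.sum_congr rfl fun χ _ => ?_
      rw [hs s h, χ.2.inv]

theorem J_one [hp : Fact p.Prime] (hM : IsPModular p M) {B : Set (IrrCharacter G)} (hB : IsPBlock M B) {k : ℕ}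
    (hk : KK p G k) : J p 1 (FF B k) = (Nat.card G * blockRank p B : ℕ) := by
  classical
  have := isPrime hM
  have := Fintype.ofFinite G
  have := Fintype.ofFinite (Cz (1 : G))
  rw [J_eq]
  have h1 : ∑ s : Cz (1 : G), (if p ∣ orderOf s then (0 : ℂ) else FF B k (1 * (s : G))) =
      ∑ g : G, if p ∣ orderOf g then (0 : ℂ) else FF B k g := by
    refine Fintype.sum_bijective (fun s : Cz (1 : G) => (s : G)) ⟨Subtype.val_injective, fun g =>
      ⟨⟨g, mem_Cz.2 (Commute.one_left g)⟩, rfl⟩⟩ _ _ fun s => ?_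
    rw [Subgroup.orderOf_coe, one_mul]
  rw [h1]
  push_cast
  rw [← trace_contrib hM hB]
  have h2 : ∀ g : G, (if p ∣ orderOf g then (0 : ℂ) else FF B k g) =
      ∑ χ ∈ fs B, preg p (χ : G → ℂ) g * conj ((χ : G → ℂ) g) := by
    intro g
    split_ifs with h
    · symm
      apply Finset.sum_eq_zero
      intro ψ _
      rw [preg, if_pos h, zero_mul]
    · unfold FF
      refine Finset.sum_congr rfl fun ψ _ => ?_
      rw [preg, if_neg h, hk.pow_reg hM.1 h]
  rw [Finset.sum_congr rfl fun g _ => h2 g, Finset.sum_comm, Finset.mul_sum]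
  refine Finset.sum_congr rfl fun χ _ => ?_
  rw [contrib_eq_classInner, classInner_def, ← mul_assoc, mul_inv_cancel₀, one_mul]
  exact Nat.cast_ne_zero.2 Nat.card_pos.ne'

open scoped Classical in
theorem count [hp : Fact p.Prime] (hM : IsPModular p M) {B : Set (IrrCharacter G)} (hB : IsPBlock M B) {k : ℕ}
    (hk : KK p G k) :
    blockRank p B ≤ ((fs B).filter (fun χ : IrrCharacter G => ∀ g : G, (χ : G → ℂ) (g ^ k) = (χ : G → ℂ) g)).card := by
  have := Fintype.ofFinite G
  have h1 : ∑ g : G, FF B k g = (Nat.card G : ℂ) *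
      ((fs B).filter (fun χ : IrrCharacter G => ∀ g : G, (χ : G → ℂ) (g ^ k) = (χ : G → ℂ) g)).card := by
    unfold FF
    rw [Finset.sum_comm, Finset.card_filter]
    push_cast
    rw [Finset.mul_sum]
    refine Finset.sum_congr rfl fun χ _ => ?_
    have h2 : ∑ g : G, (χ : G → ℂ) (g ^ k) * conj ((χ : G → ℂ) g) =
        (Nat.card G : ℂ) * classInner (fun g => (χ : G → ℂ) (g ^ k)) (χ : G → ℂ) := by
      rw [classInner_def, ← mul_assoc, mul_inv_cancel₀, one_mul]
      exact Nat.cast_ne_zero.2 Nat.card_pos.ne'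
    rw [h2]
    congr 1
    have h3 := CharGalois.isIrrCharacter_pow χ.2 hk.cop
    split_ifs with h
    · have h4 : (fun g => (χ : G → ℂ) (g ^ k)) = (χ : G → ℂ) := funext h
      rw [h4, χ.2.classInner_self]
    · exact h3.classInner_eq_zero χ.2 (fun h4 => h (fun g => congrFun h4 g))
  rw [sum_eq_J (p := p)] at h1
  have hmem : (1 : G) ∈ PE p G := mem_PE.2 ⟨0, by rw [orderOf_one, pow_zero]⟩
  rw [← Finset.add_sum_erase _ _ hmem, J_one hM hB hk] at h1
  have h2 : ∃ n : ℕ, ∑ u ∈ (PE p G).erase 1, J p u (FF B k) = n := by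
    choose n hn using fun (u : G) (hu : u ∈ PE p G) => J_nat hM hB hk (mem_PE.1 hu)
    refine ⟨∑ u ∈ ((PE p G).erase 1).attach, n u.1 (Finset.mem_of_mem_erase u.2), ?_⟩
    rw [← Finset.sum_attach]
    push_cast
    exact Finset.sum_congr rfl fun u _ => hn u.1 _
  obtain ⟨n, hn⟩ := h2
  rw [hn] at h1
  have h3 : Nat.card G * blockRank p B + n = Nat.card G *
      ((fs B).filter (fun χ : IrrCharacter G => ∀ g : G, (χ : G → ℂ) (g ^ k) = (χ : G → ℂ) g)).card := by
    exact_mod_cast h1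
  have h4 : Nat.card G * blockRank p B ≤ Nat.card G *
      ((fs B).filter (fun χ : IrrCharacter G => ∀ g : G, (χ : G → ℂ) (g ^ k) = (χ : G → ℂ) g)).card := by omega
  convert Nat.le_of_mul_le_mul_left h4 (Nat.card_pos (α := G))

theorem exists_gen (hp : p.Prime) (hodd : p ≠ 2) :
    ∃ k0 : ℕ, KK p G k0 ∧ ∀ k, KK p G k → ∃ m : ℕ, k ≡ k0 ^ m [MOD Nat.card G] := by
  have : Fact p.Prime := ⟨hp⟩
  set a := (Nat.card G).factorization p with ha
  set n' := Nat.card G / p ^ a with hn'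
  have hG : p ^ a * n' = Nat.card G := Nat.ordProj_mul_ordCompl_eq_self _ _
  have hG0 : Nat.card G ≠ 0 := Nat.card_pos.ne'
  have hcop : Nat.Coprime (p ^ a) n' := Nat.Coprime.pow_left _ (Nat.coprime_ordCompl hp hG0)
  have : NeZero (p ^ a) := ⟨pow_ne_zero _ hp.ne_zero⟩
  have hcyc : IsCyclic (ZMod (p ^ a))ˣ := ZMod.isCyclic_units_of_prime_pow p hp hodd a
  obtain ⟨g0, hg0⟩ := hcyc.exists_generator
  obtain ⟨k0, hk1, hk2⟩ := Nat.chineseRemainder hcop (g0 : ZMod (p ^ a)).val 1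
  refine ⟨k0, ⟨?_, hk2⟩, ?_⟩
  · rw [← hG]
    apply Nat.Coprime.mul_right
    · have h1 := ZMod.val_coe_unit_coprime g0
      unfold Nat.Coprime at h1 ⊢
      rw [hk1.gcd_eq, h1]
    · unfold Nat.Coprime
      rw [hk2.gcd_eq, Nat.gcd_one_left]
  · intro k hk
    have hkc : Nat.Coprime k (p ^ a) := hk.cop.coprime_dvd_right (by rw [← hG]; exact Dvd.intro _ rfl)
    obtain ⟨m, hm⟩ : ∃ m : ℕ, g0 ^ m = ZMod.unitOfCoprime k hkc := by
      have h1 := hg0 (ZMod.unitOfCoprime k hkc)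
      exact (mem_powers_iff_mem_zpowers.2 h1)
    refine ⟨m, ?_⟩
    rw [← hG, ← Nat.modEq_and_modEq_iff_modEq_mul hcop]
    constructor
    · rw [← ZMod.natCast_eq_natCast_iff]
      have h2 := congrArg (fun x : (ZMod (p ^ a))ˣ => (x : ZMod (p ^ a))) hm
      simp only [Units.val_pow_eq_pow_val, ZMod.coe_unitOfCoprime] at h2
      rw [← h2, Nat.cast_pow]
      congr 1
      have h3 := (ZMod.natCast_eq_natCast_iff _ _ _).2 hk1
      rw [h3, ZMod.natCast_val, ZMod.cast_id]
    · have h2 := hk2.pow m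
      rw [one_pow] at h2
      exact hk.one.trans h2.symm

theorem main [hp : Fact p.Prime] (hodd : p ≠ 2) (hM : IsPModular p M) {B : Set (IrrCharacter G)} (hB : IsPBlock M B) :
    blockRank p B ≤ Nat.card {χ : IrrCharacter G // χ ∈ B ∧ ∀ k : ℕ, Nat.Coprime k (Nat.card G) →
      k ≡ 1 [MOD Nat.card G / p ^ (Nat.card G).factorization p] → ∀ g : G, (χ : G → ℂ) (g ^ k) = (χ : G → ℂ) g} := by
  classical
  obtain ⟨k0, hk0, hgen⟩ := exists_gen (G := G) hp.out hodd
  refine (count hM hB hk0).trans (le_of_eq ?_)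
  have hfin : Finite (IrrCharacter G) := inferInstance
  have := Fintype.ofFinite (IrrCharacter G)
  rw [Nat.card_eq_fintype_card, Fintype.card_subtype]
  congr 1
  ext χ
  rw [Finset.mem_filter, Finset.mem_filter, mem_fs]
  simp only [Finset.mem_univ, true_and]
  constructor
  · rintro ⟨h1, h2⟩
    refine ⟨h1, fun k hk1 hk2 g => ?_⟩
    obtain ⟨m, hm⟩ := hgen k ⟨hk1, hk2⟩
    have h3 : g ^ k = g ^ k0 ^ m := (pow_eq_pow_iff_modEq (x := g)).2 (hm.of_dvd (orderOf_dvd_natCard g))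
    rw [h3]
    clear hm h3
    induction m with
    | zero => rw [pow_zero, pow_one]
    | succ m ih => rw [pow_succ, pow_mul, h2, ih]
  · rintro ⟨h1, h2⟩
    exact ⟨h1, h2 k0 hk0.cop hk0.one⟩

end Cfsg.Agent.Lib.BkPRat
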