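import Mathlib
import Cfsg.Agent.Lib.BlackburnGen

/-!
# Agemo subgroups of `p`-groups of maximal class (helper73)

No group of order `p^(p+1)` and class `p` has exponent `p`; `|H : ℧(H)| ≤ p^p` for every subgroup `H` of a
`p`-group of maximal class.
-/

set_option autoImplicit false

open Subgroup
open scoped commutatorElement

namespace Cfsg.Agent.Lib.BlackburnAgemo

open Cfsg.Agent.Lib.BlackburnHP Cfsg.Agent.Lib.BlackburnChain Cfsg.Agent.Lib.BlackburnChain.MC
open Cfsg.Agent.Lib.BlackburnPower Cfsg.Agent.Lib.BlackburnMain Cfsg.Agent.Lib.BlackburnCons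

universe u

variable {S : Type u} [Group S] {p n : ℕ} {G : ℕ → Subgroup S}

theorem sq_inv_mul (h : MC p n G) {s y : S} (hy : y ∈ G 1) (k : ℕ) : sq s y⁻¹ k * sq s y k ∈ G (k + 2) := by
  induction k with
  | zero => rw [sq_zero, sq_zero, inv_mul_cancel]; exact one_mem _
  | succ k ih =>
    have h1 : sq s y⁻¹ k ∈ G (1 + k) := h.sq_mem s le_rfl (inv_mem hy) k
    have h2 : sq s y k ∈ G (1 + k) := h.sq_mem s le_rfl hy k
    rw [add_comm 1 k] at h1 h2
    rw [sq_succ, sq_succ]
    have h3 : ⁅s, sq s y⁻¹ k * sq s y k⁆ ∈ G (k + 2 + 1) := h.comm_mem (by omega) s ih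
    have h4 : ⁅s, sq s y k⁆ ∈ G (k + 1 + 1) := h.comm_mem (by omega) s h2
    have h5 : ⁅sq s y⁻¹ k, ⁅s, sq s y k⁆⁆ ∈ G (k + 1 + 1 + 1) := h.comm_mem (by omega) _ h4
    have h6 : ⁅s, sq s y⁻¹ k⁆ * ⁅s, sq s y k⁆ =
        ⁅s, sq s y⁻¹ k * sq s y k⁆ * (⁅s, sq s y k⁆⁻¹ * ⁅sq s y⁻¹ k, ⁅s, sq s y k⁆⁆⁻¹ * ⁅s, sq s y k⁆) := by
      simp only [commutatorElement_def]; group
    rw [h6]
    have := h.normal (k + 1 + 2)
    refine mul_mem h3 ?_
    have h7 : ⁅s, sq s y k⁆⁻¹ * ⁅sq s y⁻¹ k, ⁅s, sq s y k⁆⁆⁻¹ * ⁅s, sq s y k⁆ =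
        ⁅s, sq s y k⁆⁻¹ * ⁅sq s y⁻¹ k, ⁅s, sq s y k⁆⁆⁻¹ * ⁅s, sq s y k⁆⁻¹⁻¹ := by rw [inv_inv]
    rw [h7]
    exact Subgroup.Normal.conj_mem inferInstance _ (inv_mem h5) _

/-- the diagonal of a central subgroup -/
def diag (C : Subgroup S) : Subgroup (S × S) where
  carrier := {x | x.1 ∈ C ∧ x.1 = x.2}
  one_mem' := ⟨one_mem _, rfl⟩
  mul_mem' := by
    rintro x y ⟨h1, h2⟩ ⟨h3, h4⟩
    exact ⟨mul_mem h1 h3, by rw [Prod.fst_mul, Prod.snd_mul, h2, h4]⟩
  inv_mem' := by
    rintro x ⟨h1, h2⟩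
    exact ⟨inv_mem h1, by rw [Prod.fst_inv, Prod.snd_inv, h2]⟩

theorem diag_normal {C : Subgroup S} (hC : ∀ c ∈ C, ∀ g, g * c = c * g) : (diag C).Normal := by
  constructor
  rintro x ⟨h1, h2⟩ g
  have h3 : x.2 ∈ C := h2 ▸ h1
  have h4 : g * x * g⁻¹ = x := by
    ext
    · show g.1 * x.1 * g.1⁻¹ = x.1
      rw [hC _ h1, mul_inv_cancel_right]
    · show g.2 * x.2 * g.2⁻¹ = x.2
      rw [hC _ h3, mul_inv_cancel_right]
  rw [h4]
  exact ⟨h1, h2⟩

theorem comm_prod (a b c d : S) : ⁅((a, b) : S × S), (c, d)⁆ = (⁅a, c⁆, ⁅b, d⁆) := by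
  simp [commutatorElement_def]

theorem sq_pair (s y z : S) (k : ℕ) : sq ((s, s) : S × S) (y, z) k = (sq s y k, sq s z k) := by
  induction k with
  | zero => rfl
  | succ k ih => rw [sq_succ, ih, comm_prod]; rfl

/-- a group of order `p^(p+1)` and maximal class does not have exponent `p` (`p` odd) -/
theorem exists_pow_ne_one [hp : Fact p.Prime] (h : MC p (p + 1) G) (h2 : ⁅G 2, G 1⁆ ≤ G 4) (hp2 : p ≠ 2) :
    ∃ x : S, x ^ p ≠ 1 := by
  by_contra hexp
  push Not at hexp
  have hp3 : 3 ≤ p := by have := hp.out.two_le; omega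
  obtain ⟨s, hs1, hs⟩ := exists_unif h (by omega) h2
  obtain ⟨y, hy, hy'⟩ := h.exists_mem (i := 1) (by omega)
  have hcen : ∀ c ∈ G p, ∀ g, g * c = c * g := by
    intro c hc g
    exact central h (by omega) (by rwa [Nat.add_sub_cancel]) g
  have htwo := two_step h h2
  let D : ℕ → Subgroup (S × S) := fun k => if k ≤ p then (G k).prod (G k) else if k = p + 1 then diag (G p) else ⊥
  have hD1 : ∀ k, k ≤ p → D k = (G k).prod (G k) := fun k hk => by simp only [D, if_pos hk]
  have hD2 : D (p + 1) = diag (G p) := by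
    simp only [D]
    rw [if_neg (by omega)]
    simp
  have hD3 : ∀ k, p + 2 ≤ k → D k = ⊥ := by
    intro k hk
    simp only [D]
    rw [if_neg (by omega), if_neg (by omega)]
  have hdn := diag_normal hcen
  have hcomm1 : ∀ (g d : S × S), d.1 ∈ G p → d.2 ∈ G p → ⁅g, d⁆ = 1 := by
    intro g d h3 h4
    rw [commutatorElement_eq_one_iff_mul_comm]
    ext
    · exact hcen _ h3 _
    · exact hcen _ h4 _
  have hlead : ∃ j : ℤ, ¬ (p : ℤ) ∣ j ∧ (((s, s) : S × S) ^ p * ((y, y⁻¹) : S × S) ^ p *
      (sq ((s, s) : S × S) (y, y⁻¹) (p - 1)) ^ j)⁻¹ * (((s, s) : S × S) * (y, y⁻¹)) ^ p ∈ diag (G p) := by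
    refine leading p D ?_ ?_ ?_ (s, s) (y, y⁻¹) ?_ ?_ (diag (G p)) hD2.le ?_
    · -- normality
      intro k
      rcases Nat.lt_or_ge p k with h3 | h3
      · rcases Nat.lt_or_ge k (p + 2) with h4 | h4
        · rw [show k = p + 1 by omega, hD2]; exact hdn
        · rw [hD3 k h4]; infer_instance
      · rw [hD1 k h3]
        have := h.normal k
        infer_instance
    · -- commutators
      intro k hk g d hd
      rcases Nat.lt_or_ge k p with h3 | h3
      · rw [hD1 k h3.le] at hd
        rw [hD1 (k + 1) h3]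
        exact ⟨h.comm_mem hk g.1 hd.1, h.comm_mem hk g.2 hd.2⟩
      · have h4 : ⁅g, d⁆ = 1 := by
          rcases Nat.lt_or_ge p k with h5 | h5
          · rcases Nat.lt_or_ge k (p + 2) with h4 | h4
            · rw [show k = p + 1 by omega, hD2] at hd
              exact hcomm1 g d hd.1 (hd.2 ▸ hd.1)
            · rw [hD3 k h4, mem_bot] at hd
              rw [hd, commutatorElement_one_right]
          · have h6 : k = p := by omega
            rw [hD1 k h5, h6] at hd
            exact hcomm1 g d hd.1 hd.2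
        rw [h4]; exact one_mem _
    · -- monotone
      intro k hk
      rcases Nat.lt_or_ge k p with h3 | h3
      · rw [hD1 k h3.le, hD1 (k + 1) h3]
        exact Subgroup.prod_mono (h.anti (by omega)) (h.anti (by omega))
      · rcases Nat.lt_or_ge p k with h5 | h5
        · rw [hD3 (k + 1) (by omega)]; exact bot_le
        · have h6 : k = p := by omega
          rw [h6, hD2, hD1 p le_rfl]
          rintro x ⟨hx1, hx2⟩
          exact ⟨hx1, hx2 ▸ hx1⟩
    · -- `y' ∈ D 1`
      rw [hD1 1 (by omega)]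
      exact ⟨hy, (G 1).inv_mem hy⟩
    · -- `[y', sq]`
      intro j hj hjp
      rw [sq_pair, comm_prod]
      have hc := h.sq_mem s le_rfl hy j
      have hd := h.sq_mem s le_rfl (inv_mem hy) j
      rcases Nat.lt_or_ge (j + 2) p with h3 | h3
      · rw [hD1 (j + 3) (by omega)]
        have h4 := htwo (1 + j) (by omega) (by omega)
        rw [Subgroup.commutator_comm, Subgroup.commutator_le] at h4
        refine ⟨?_, ?_⟩
        · have := h4 y hy _ hc
          rwa [show 1 + j + 2 = j + 3 by omega] at this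
        · have := h4 y⁻¹ (inv_mem hy) _ hd
          rwa [show 1 + j + 2 = j + 3 by omega] at this
      · have h4 : j + 2 = p := by omega
        rw [show j + 3 = p + 1 by omega, hD2]
        have h5 := sq_inv_mul h hy (s := s) j
        rw [h4] at h5
        set c := sq s y j with hcd
        set d := sq s y⁻¹ j with hdd
        have h6 : ⁅y, c⁆ ∈ G p := by
          have := h.comm_mem (i := 1 + j) (by omega) y hc
          rwa [show 1 + j + 1 = p by omega] at this
        refine ⟨h6, ?_⟩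
        show ⁅y, c⁆ = ⁅y⁻¹, d⁆
        have h7 : d = (d * c) * c⁻¹ := by group
        have h8 : ⁅y⁻¹, d⁆ = ⁅y⁻¹, c⁻¹⁆ := by
          rw [h7]
          set z := d * c with hz
          have hz1 : ∀ g, g * z = z * g := hcen z h5
          rw [commutatorElement_def, commutatorElement_def, mul_inv_rev, inv_inv, inv_inv]
          calc y⁻¹ * (z * c⁻¹) * y * (c * z⁻¹) = (y⁻¹ * z) * c⁻¹ * y * c * z⁻¹ := by group
            _ = z * y⁻¹ * c⁻¹ * y * c * z⁻¹ := by rw [hz1]
            _ = (z * (y⁻¹ * c⁻¹ * y * c)) * z⁻¹ := by group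
            _ = (y⁻¹ * c⁻¹ * y * c) * z * z⁻¹ := by rw [hz1]
            _ = y⁻¹ * c⁻¹ * y * c := by rw [mul_inv_cancel_right]
        rw [h8]
        have h9 : y * c = ⁅y, c⁆ * (c * y) := by rw [commutatorElement_def]; group
        have h10 : ∀ g, g * ⁅y, c⁆ = ⁅y, c⁆ * g := hcen _ h6
        have h11 : ⁅y⁻¹, c⁻¹⁆ = y⁻¹ * c⁻¹ * (y * c) := by rw [commutatorElement_def, inv_inv, inv_inv]; group
        rw [h11, h9]
        have h12 : y⁻¹ * c⁻¹ * (⁅y, c⁆ * (c * y)) = (y⁻¹ * c⁻¹ * ⁅y, c⁆) * (c * y) := by group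
        rw [h12, h10]
        group
    · -- powers
      intro k hk hkp g hg
      have : g ^ p = 1 := by
        ext
        · exact hexp _
        · exact hexp _
      rw [this]; exact one_mem _
  obtain ⟨j, hj, hmem⟩ := hlead
  -- conclusion
  have hexp' : ∀ x : S × S, x ^ p = 1 := by
    intro x
    ext
    · exact hexp _
    · exact hexp _
  simp only [hexp', one_mul, mul_one] at hmem
  rw [sq_pair] at hmem
  have ha := h.sq_mem s le_rfl hy (p - 1)
  have ha' := h.sq_not_mem hs le_rfl hy hy' (p - 1) (by omega)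
  have hb := sq_inv_mul h hy (s := s) (p - 1)
  have hb1 : sq s y⁻¹ (p - 1) * sq s y (p - 1) = 1 := h.mem_bot' (by omega) hb
  have hb2 : sq s y⁻¹ (p - 1) = (sq s y (p - 1))⁻¹ := eq_inv_of_mul_eq_one_left hb1
  rw [hb2] at hmem
  have h3 := (inv_mem hmem).2
  rw [inv_inv] at h3
  set a := sq s y (p - 1) with had
  have h4 : a ^ j = (a⁻¹) ^ j := h3
  have h5 : a ^ (2 * j) = 1 := by
    rw [two_mul, zpow_add]
    nth_rw 1 [h4]
    rw [inv_zpow, inv_mul_cancel]
  apply ha'
  have h6 : a = 1 := by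
    have h7 : orderOf a ∣ p := orderOf_dvd_of_pow_eq_one (hexp a)
    rcases (Nat.dvd_prime hp.out).1 h7 with h8 | h8
    · exact orderOf_eq_one_iff.1 h8
    · exfalso
      have h9 : (orderOf a : ℤ) ∣ 2 * j := orderOf_dvd_iff_zpow_eq_one.2 h5
      rw [h8] at h9
      rcases (Nat.prime_iff_prime_int.1 hp.out).dvd_or_dvd h9 with h10 | h10
      · have := Int.le_of_dvd (by norm_num) h10
        omega
      · exact hj h10
  rw [h6]; exact one_mem _

/-- `|X : ℧(X)| ≤ p^p` for `X` of maximal class -/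
theorem index_agemo_le {X : Type u} [Group X] [Finite X] [hp : Fact p.Prime] (hX : Nat.card X = p ^ n)
    (hcl : Group.nilpotencyClass X = n - 1) {K : Subgroup X} [K.Normal] (hK : ∀ x : X, x ^ p ∈ K) :
    K.index ≤ p ^ p := by
  have hp2 := hp.out.two_le
  have hidx : ∃ r ≤ n, K.index = p ^ r := (Nat.dvd_prime_pow hp.out).1 (hX ▸ K.index_dvd_card)
  obtain ⟨r, hrn, hr⟩ := hidx
  rw [hr]
  apply Nat.pow_le_pow_right hp.out.pos
  by_contra hlt
  push Not at hlt
  obtain ⟨G, h, h2, hG⟩ := exists_chain (X := X) (n := n) (by omega) hX hcl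
  have hKr : K = G r := by
    rw [hG r (by omega)]
    exact MaxClassNormal.eq_lcs_of_normal (by omega) hX hcl K (by omega) hr
  rcases Nat.lt_or_ge n (p + 2) with h3 | h3
  · have hn : n = p + 1 := by omega
    have hrp : r = p + 1 := by omega
    subst hn
    subst hrp
    have h4 : ∀ x : X, x ^ p = 1 := by
      intro x
      have := hK x
      rw [hKr] at this
      exact h.mem_bot' le_rfl this
    by_cases hpt : p = 2
    · -- exponent two
      subst hpt
      have hab : ∀ x y : X, x * y = y * x := by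
        intro x y
        have h5 := h4 (x * y)
        have h6 := h4 x
        have h7 := h4 y
        rw [pow_two] at h5 h6 h7
        have h8 : x⁻¹ = x := inv_eq_of_mul_eq_one_left h6
        have h9 : y⁻¹ = y := inv_eq_of_mul_eq_one_left h7
        have h10 : (x * y)⁻¹ = x * y := inv_eq_of_mul_eq_one_left h5
        rw [mul_inv_rev, h8, h9] at h10
        exact h10.symm
      obtain ⟨x, hx, hx'⟩ := h.exists_mem (i := 2) (by omega)
      have h5 := h.comm 1 le_rfl
      have h6 : ⁅G 1, (⊤ : Subgroup X)⁆ = ⊥ := by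
        rw [eq_bot_iff, commutator_le]
        intro a _ b _
        rw [mem_bot, commutatorElement_eq_one_iff_mul_comm]
        exact hab a b
      rw [h6] at h5
      rw [← h5, mem_bot] at hx
      exact hx' (by rw [hx]; exact one_mem _)
    · obtain ⟨x, hx⟩ := exists_pow_ne_one h h2 hpt
      exact hx (h4 x)
  · obtain ⟨x, hx, hx'⟩ := h.exists_mem (i := 1) (by omega)
    obtain ⟨h4, h5⟩ := pow_exact h h3 h2 le_rfl (by omega) hx hx'
    apply h5
    have h6 := hK x
    rw [hKr] at h6
    exact h.anti (by omega) h6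

/-- `|H : ℧(H)| ≤ p^p` for every subgroup `H` of a `p`-group of maximal class -/
theorem relIndex_agemo_le {X : Type u} [Group X] [Finite X] [hp : Fact p.Prime] (hX : Nat.card X = p ^ n)
    (hcl : Group.nilpotencyClass X = n - 1) (H : Subgroup X) :
    (closure {y : X | ∃ h ∈ H, y = h ^ p}).relIndex H ≤ p ^ p := by
  have hp2 := hp.out.two_le
  set K := closure {y : X | ∃ h ∈ H, y = h ^ p} with hKd
  have hKmem : ∀ x ∈ H, x ^ p ∈ K := fun x hx => subset_closure ⟨x, hx, rfl⟩
  have hKH : K ≤ H := by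
    rw [hKd, closure_le]
    rintro y ⟨h, hh, rfl⟩
    exact H.pow_mem hh p
  have hXp : IsPGroup p X := IsPGroup.of_card hX
  obtain ⟨r, hr⟩ := IsPGroup.iff_card.mp (hXp.to_subgroup H)
  rcases Nat.lt_or_ge p r with h1 | h1
  · -- `|H| > p^p`
    have hrn : r ≤ n := by
      have h3 : Nat.card H ≤ Nat.card X := Subgroup.card_le_card_group H
      rw [hr, hX] at h3
      exact (Nat.pow_le_pow_iff_right hp.out.one_lt).1 h3
    -- the case where `H` is of maximal class
    have hmc : Group.nilpotencyClass H = r - 1 → K.relIndex H ≤ p ^ p := by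
      intro hcH
      have hKn : (K.subgroupOf H).Normal := by
        constructor
        intro k hk g
        rw [mem_subgroupOf] at hk ⊢
        have h3 : K ≤ K.comap (MulAut.conj (g : X)).toMonoidHom := by
          rw [hKd, closure_le]
          rintro y ⟨h, hh, rfl⟩
          show (g : X) * h ^ p * (g : X)⁻¹ ∈ K
          rw [← conj_pow]
          exact hKmem _ (H.mul_mem (H.mul_mem g.2 hh) (H.inv_mem g.2))
        exact h3 hk
      exact index_agemo_le hr hcH fun x => by
        rw [mem_subgroupOf]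
        exact hKmem _ x.2
    rcases Nat.lt_or_ge n (p + 2) with h3 | h3
    · have hHt : H = ⊤ := Subgroup.eq_top_of_card_eq H (by rw [hr, hX]; congr 1; omega)
      apply hmc
      have e : H ≃* X := (MulEquiv.subgroupCongr hHt).trans Subgroup.topEquiv
      have h4 : Group.nilpotencyClass H = Group.nilpotencyClass X := by
        have hnX : Group.IsNilpotent X := hXp.isNilpotent
        have hnH : Group.IsNilpotent H := (hXp.to_subgroup H).isNilpotent
        exact le_antisymm (Group.nilpotencyClass_le_of_surjective e.symm.toMonoidHom e.symm.surjective)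
          (Group.nilpotencyClass_le_of_surjective e.toMonoidHom e.surjective)
      rw [h4, hcl]
      congr 1; omega
    · obtain ⟨G, h, h2, hG⟩ := exists_chain (X := X) (n := n) (by omega) hX hcl
      by_cases hH1 : H ≤ G 1
      · have h4 := card_le_agemo h h3 h2 hH1 hKmem
        have h5 : K.relIndex H * Nat.card K = Nat.card H := by
          have h6 := (K.subgroupOf H).card_mul_index
          rw [Nat.card_congr (Subgroup.subgroupOfEquivOfLe hKH).toEquiv, mul_comm] at h6
          exact h6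
        have h6 : 0 < Nat.card K := Nat.card_pos
        have h7 : K.relIndex H ≤ p ^ (p - 1) := by
          rw [← h5] at h4
          exact Nat.le_of_mul_le_mul_right h4 h6
        exact h7.trans (Nat.pow_le_pow_right hp.out.pos (by omega))
      · obtain ⟨s, hsH, hs1⟩ := SetLike.not_le_iff_exists.1 hH1
        have hs := unif_of_not_mem h h3 h2 hs1
        have h4 := card_centralizer h (by omega) hs1 hs
        exact hmc (BlackburnGen.maxclass_of_mem hr (by omega) hsH h4.le)
  · have h3 : K.relIndex H ≤ Nat.card H := Nat.le_of_dvd Nat.card_pos (Subgroup.relIndex_dvd_card K H)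
    refine h3.trans ?_
    rw [hr]
    exact Nat.pow_le_pow_right hp.out.pos h1

end Cfsg.Agent.Lib.BlackburnAgemo
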