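import Mathlib
import Cfsg.Agent.Lib.BlackburnEss
import Cfsg.Agent.Lib.BlackburnPearl
import Cfsg.Agent.Lib.TateApps
import Cfsg.Agent.Lib.FusionHyper
import Cfsg.Agent.Lib.FusionGroup
import Cfsg.Agent.Lib.FusionEss
import Cfsg.Agent.Lib.OffenderGen
import Cfsg.Agent.Lib.SmallSimple

/-!
# Groups with Sylow `p`-subgroups of maximal class (helper73)
-/

set_option autoImplicit false

open Subgroup Cfsg
open scoped commutatorElement Pointwise

namespace Cfsg.Agent.Lib.BlackburnQS

open Cfsg.Agent.Lib.BlackburnHP Cfsg.Agent.Lib.BlackburnChain Cfsg.Agent.Lib.BlackburnChain.MC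
open Cfsg.Agent.Lib.BlackburnPower Cfsg.Agent.Lib.BlackburnMain Cfsg.Agent.Lib.BlackburnCons
open Cfsg.Agent.Lib.BlackburnEss Cfsg.Agent.Lib.FusionBasic

variable {G : Type*} [Group G] [Finite G] {p n : ℕ} [hp : Fact p.Prime]

/-- `|C_P(x)| = p²` -/
def U (P : Subgroup G) (p : ℕ) (x : G) : Prop := Nat.card (P ⊓ centralizer ({x} : Set G) : Subgroup G) = p ^ 2

omit [Finite G] in
theorem card_conj_normalizer (P : Subgroup G) (x : G) {g : G} (hg : ∀ y, y ∈ P ↔ g * y * g⁻¹ ∈ P) :
    Nat.card (P ⊓ centralizer ({g * x * g⁻¹} : Set G) : Subgroup G) = Nat.card (P ⊓ centralizer ({x} : Set G) : Subgroup G) := by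
  have h1 : P ⊓ centralizer ({g * x * g⁻¹} : Set G) = (P ⊓ centralizer ({x} : Set G)).map (MulAut.conj g).toMonoidHom := by
    ext y
    constructor
    · rintro ⟨hy1, hy2⟩
      refine ⟨g⁻¹ * y * g, ⟨(hg _).2 ?_, ?_⟩, ?_⟩
      · have : g * (g⁻¹ * y * g) * g⁻¹ = y := by group
        rw [this]; exact hy1
      · refine mem_centralizer_singleton_iff.2 ?_
        have h2 := mem_centralizer_singleton_iff.1 hy2
        have h3 : g⁻¹ * (y * (g * x * g⁻¹)) * g = g⁻¹ * (g * x * g⁻¹ * y) * g := by rw [h2]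
        simpa [mul_assoc] using h3
      · simp [MulAut.conj_apply, mul_assoc]
    · rintro ⟨z, ⟨hz1, hz2⟩, rfl⟩
      refine ⟨?_, ?_⟩
      · show g * z * g⁻¹ ∈ P
        exact (hg z).1 hz1
      · refine mem_centralizer_singleton_iff.2 ?_
        have h2 := mem_centralizer_singleton_iff.1 hz2
        show g * z * g⁻¹ * (g * x * g⁻¹) = g * x * g⁻¹ * (g * z * g⁻¹)
        have h3 : g * (z * x) * g⁻¹ = g * (x * z) * g⁻¹ := by rw [h2]
        simpa [mul_assoc] using h3
  rw [h1]
  exact Subgroup.card_map_of_injective (MulAut.conj g).injective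

omit [Finite G] in
theorem card_conj (P : Subgroup G) (x : G) {g : G} (hg : g ∈ P) :
    Nat.card (P ⊓ centralizer ({g * x * g⁻¹} : Set G) : Subgroup G) = Nat.card (P ⊓ centralizer ({x} : Set G) : Subgroup G) := by
  refine card_conj_normalizer P x fun y => ⟨fun hy => ?_, fun hy => ?_⟩
  · exact P.mul_mem (P.mul_mem hg hy) (P.inv_mem hg)
  · have h1 : y = g⁻¹ * (g * y * g⁻¹) * g := by group
    rw [h1]
    exact P.mul_mem (P.mul_mem (P.inv_mem hg) hy) hg


/-- an element with `|C_P(x)| = p²` which is fused to an element with larger centralizer in `P` lies in an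
essential subgroup (up to replacing it by another one outside `M`) -/
theorem exists_essential (P : Sylow p G) (M : Subgroup G) [M.Normal] {s g : G} (hs : s ∈ (P : Subgroup G)) (hsM : s ∉ M)
    (hsU : U (P : Subgroup G) p s) (hg : g * s * g⁻¹ ∈ (P : Subgroup G)) (hgU : ¬ U (P : Subgroup G) p (g * s * g⁻¹)) :
    ∃ E : Subgroup G, (groupFusionSystem (P : Subgroup G)).IsEssential p E ∧ ∃ x ∈ E, x ∉ M ∧ U (P : Subgroup G) p x := by
  classical
  set F := groupFusionSystem (P : Subgroup G) with hF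
  have hsat : F.IsSaturated p := FusionGroup.groupFusionSystem_isSaturated P
  by_contra hno
  push Not at hno
  have key := FusionHyper.alperin_induction (F := F) P.2 hsat
    (fun Q f => ∀ x ∈ Q, (x ∈ M ↔ f x ∈ M) ∧ (x ∉ M → (U (P : Subgroup G) p x ↔ U (P : Subgroup G) p (f x))))
    ?_ ?_ ?_ ?_ ?_
  · -- apply to conjugation by `g` on `⟨s⟩`
    have hle : zpowers s ≤ (P : Subgroup G) := by rwa [zpowers_le]
    have hmap : FMap F (zpowers s) (fun x => g * x * g⁻¹) := by
      refine ⟨conjHom (zpowers s) g, ⟨hle, ?_, g, fun _ => rfl⟩, fun _ => rfl⟩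
      rintro ⟨x, hx⟩
      obtain ⟨k, rfl⟩ := mem_zpowers_iff.1 hx
      show g * s ^ k * g⁻¹ ∈ (P : Subgroup G)
      rw [← conj_zpow]
      exact zpow_mem hg k
    have h1 := key (zpowers s) _ hmap s (mem_zpowers s)
    exact hgU ((h1.2 hsM).1 hsU)
  · intro Q f f' _ hff hA x hx
    have := hA x hx
    rw [← hff x hx]
    exact this
  · intro Q t _ ht x _
    refine ⟨⟨fun h => Subgroup.Normal.conj_mem inferInstance _ h t, fun h => ?_⟩, fun _ => ?_⟩
    · have := Subgroup.Normal.conj_mem (H := M) inferInstance _ h t⁻¹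
      simpa [mul_assoc] using this
    · show U (P : Subgroup G) p x ↔ U (P : Subgroup G) p (t * x * t⁻¹)
      unfold U
      rw [card_conj _ _ ht]
  · intro Q R f f' hf hf' hfQ hA hA' x hx
    obtain ⟨h1, h2⟩ := hA x hx
    obtain ⟨h3, h4⟩ := hA' (f x) (hfQ x hx)
    exact ⟨h1.trans h3, fun hxM => (h2 hxM).trans (h4 (fun h => hxM (h1.2 h)))⟩
  · intro Q R f f' hf hf' hff hA y hy
    obtain ⟨x, hx, rfl⟩ := (hf.2 y).1 hy
    obtain ⟨h1, h2⟩ := hA x hx
    rw [hff x hx]
    exact ⟨h1.symm, fun hxM => (h2 (fun h => hxM (h1.1 h))).symm⟩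
  · intro Q f hQ hf x hx
    obtain ⟨⟨φ, ⟨hQP, hφP, k, hk⟩, hφf⟩, hf2⟩ := hf
    have hfk : ∀ y ∈ Q, f y = k * y * k⁻¹ := by
      intro y hy
      rw [← hφf ⟨y, hy⟩, hk ⟨y, hy⟩]
    have hM : x ∈ M ↔ f x ∈ M := by
      rw [hfk x hx]
      refine ⟨fun h => Subgroup.Normal.conj_mem inferInstance _ h k, fun h => ?_⟩
      have := Subgroup.Normal.conj_mem (H := M) inferInstance _ h k⁻¹
      simpa [mul_assoc] using this
    refine ⟨hM, fun hxM => ?_⟩
    rcases hQ with rfl | hQ
    · rw [hfk x hx]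
      unfold U
      rw [card_conj_normalizer]
      have hsub : ∀ y ∈ (P : Subgroup G), k * y * k⁻¹ ∈ (P : Subgroup G) := by
        intro y hy
        rw [← hfk y hy]
        exact (hf2 _).2 ⟨y, hy, rfl⟩
      intro y
      refine ⟨hsub y, fun hy => ?_⟩
      obtain ⟨z, hz, hzy⟩ := (hf2 _).1 hy
      rw [hfk z hz] at hzy
      have : z = y := by
        have h1 := mul_right_cancel hzy
        exact mul_left_cancel h1
      rwa [← this]
    · have h1 := hno Q hQ x hx hxM
      have h2 := hno Q hQ (f x) ((hf2 _).2 ⟨x, hx, rfl⟩) (fun h => hxM (hM.2 h))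
      exact ⟨fun h => absurd h h1, fun h => absurd h h2⟩

omit [Finite G] in
theorem card_centralizer_subtype (P : Subgroup G) (x : P) :
    Nat.card (centralizer ({x} : Set P)) = Nat.card (P ⊓ centralizer ({(x : G)} : Set G) : Subgroup G) := by
  have h1 : (P ⊓ centralizer ({(x : G)} : Set G)).subgroupOf P = centralizer ({x} : Set P) := by
    ext y
    rw [mem_subgroupOf, mem_inf, mem_centralizer_singleton_iff, mem_centralizer_singleton_iff]
    constructor
    · rintro ⟨-, h⟩
      exact Subtype.ext h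
    · intro h
      exact ⟨y.2, congrArg Subtype.val h⟩
  rw [← h1]
  exact Nat.card_congr (Subgroup.subgroupOfEquivOfLe inf_le_left).toEquiv

/-- if no element of `P` has a centralizer with `p`-part `p²` then uniform elements are fused to others -/
theorem exists_fused (P : Sylow p G) {s : G} (hs : s ∈ (P : Subgroup G)) (hsU : U (P : Subgroup G) p s)
    (hstar : (Nat.card (centralizer ({s} : Set G))).factorization p ≠ 2) :
    ∃ g : G, g * s * g⁻¹ ∈ (P : Subgroup G) ∧ ¬ U (P : Subgroup G) p (g * s * g⁻¹) := by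
  set C := centralizer ({s} : Set G) with hC
  set Q : Subgroup G := (P : Subgroup G) ⊓ C with hQ
  have hQC : Q ≤ C := inf_le_right
  have hQp : IsPGroup p (Q.subgroupOf C) := by
    have h1 : IsPGroup p Q := P.2.to_le inf_le_left
    exact h1.of_equiv (Subgroup.subgroupOfEquivOfLe hQC).symm
  obtain ⟨R, hR⟩ := hQp.exists_le_sylow
  set R' : Subgroup G := (R : Subgroup C).map C.subtype with hR'
  have hR'p : IsPGroup p R' := R.2.map _
  have hQR : Q ≤ R' := by
    intro x hx
    exact ⟨⟨x, hQC hx⟩, hR hx, rfl⟩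
  have hR'C : R' ≤ C := by
    rintro _ ⟨x, -, rfl⟩
    exact x.2
  have hcR : Nat.card R' = p ^ (Nat.card C).factorization p := by
    rw [hR', Subgroup.card_map_of_injective C.subtype_injective]
    exact R.card_eq_multiplicity
  have hUQ : Nat.card Q = p ^ 2 := hsU
  have hf : 3 ≤ (Nat.card C).factorization p := by
    have h1 : Nat.card Q ≤ Nat.card R' := Subgroup.card_le_of_le hQR
    rw [hUQ, hcR, Nat.pow_le_pow_iff_right hp.out.one_lt] at h1
    omega
  obtain ⟨T, hT⟩ := hR'p.exists_le_sylow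
  obtain ⟨g, hg⟩ := MulAction.exists_smul_eq G T P
  have hgT : ∀ x ∈ R', g * x * g⁻¹ ∈ (P : Subgroup G) := by
    intro x hx
    rw [← hg, Sylow.coe_subgroup_smul]
    exact Subgroup.smul_mem_pointwise_smul x (MulAut.conj g) (T : Subgroup G) (hT hx)
  have hsR : s ∈ R' := hQR ⟨hs, mem_centralizer_singleton_iff.2 rfl⟩
  refine ⟨g, hgT s hsR, ?_⟩
  intro hU
  have h1 : Nat.card R' ≤ p ^ 2 := by
    rw [← show Nat.card ((P : Subgroup G) ⊓ centralizer ({g * s * g⁻¹} : Set G) : Subgroup G) = p ^ 2 from hU]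
    refine Nat.card_le_card_of_injective (fun x : R' => (⟨g * x * g⁻¹, ?_⟩ :
      ((P : Subgroup G) ⊓ centralizer ({g * s * g⁻¹} : Set G) : Subgroup G))) ?_
    · refine mem_inf.2 ⟨hgT x x.2, ?_⟩
      have h2 := mem_centralizer_singleton_iff.1 (hR'C x.2)
      refine mem_centralizer_singleton_iff.2 ?_
      have h3 : g * (x * s) * g⁻¹ = g * (s * x) * g⁻¹ := by rw [h2]
      simpa [mul_assoc] using h3
    · intro a b hab
      have h2 := congrArg Subtype.val hab
      simp only at h2
      exact Subtype.ext (mul_left_cancel (mul_right_cancel h2))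
  rw [hcR, Nat.pow_le_pow_iff_right hp.out.one_lt] at h1
  omega

/-- proper nontrivial normal subgroups are central of order `p` -/
theorem normal_central (P : Sylow p G) (hn : 3 ≤ n) (hP : Nat.card P = p ^ n)
    (hcl : Group.nilpotencyClass (P : Subgroup G) = n - 1) (hcore : Cfsg.pPrimeCore p G = ⊥)
    (hres : ∀ N : Subgroup G, N.Normal → (N.index).Coprime p → N = ⊤)
    (hstar : ∀ x ∈ (P : Subgroup G), (Nat.card (centralizer ({x} : Set G))).factorization p ≠ 2)
    (M : Subgroup G) [M.Normal] (hMt : M ≠ ⊤) (hMb : M ≠ ⊥) : M ≤ center G ∧ Nat.card M = p := by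
  classical
  have hp1 := hp.out.one_lt
  obtain ⟨H, h, h2, hH⟩ := exists_chain (X := (P : Subgroup G)) hn hP hcl
  have hcopP : ((P : Subgroup G).index).Coprime p :=
    ((Nat.Prime.coprime_iff_not_dvd hp.out).2 P.not_dvd_index).symm
  have hPM : ¬ (P : Subgroup G) ≤ M := by
    intro hle
    exact hMt (hres M inferInstance (Nat.Coprime.coprime_dvd_left (Subgroup.index_dvd_of_le hle) hcopP))
  set N : Subgroup (P : Subgroup G) := M.subgroupOf (P : Subgroup G) with hNd
  have hNt : N ≠ ⊤ := by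
    intro h1
    exact hPM (Subgroup.subgroupOf_eq_top.1 h1)
  -- `N ≠ ⊥`
  have hp'M : ∀ K : Subgroup G, K.Normal → ¬ p ∣ Nat.card K → K = ⊥ := by
    intro K hK hpK
    rw [eq_bot_iff, ← hcore]
    exact le_sSup ⟨hK, ((Nat.Prime.coprime_iff_not_dvd hp.out).2 hpK).symm⟩
  have hNb : N ≠ ⊥ := by
    intro h1
    apply hMb
    apply hp'M M inferInstance
    intro hpM
    obtain ⟨x, hx⟩ := exists_prime_orderOf_dvd_card' p hpM
    have hx1 : orderOf (x : G) = p := by rw [Subgroup.orderOf_coe]; exact hx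
    have hxp : IsPGroup p (zpowers (x : G)) := IsPGroup.of_card (n := 1) (by rw [Nat.card_zpowers, hx1, pow_one])
    obtain ⟨T, hT⟩ := hxp.exists_le_sylow
    obtain ⟨g, hg⟩ := MulAction.exists_smul_eq G T P
    have h3 : g * x * g⁻¹ ∈ (P : Subgroup G) := by
      rw [← hg, Sylow.coe_subgroup_smul]
      exact Subgroup.smul_mem_pointwise_smul (x : G) (MulAut.conj g) (T : Subgroup G) (hT (mem_zpowers _))
    have h4 : (⟨g * x * g⁻¹, h3⟩ : (P : Subgroup G)) ∈ N := by
      rw [hNd, mem_subgroupOf]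
      exact Subgroup.Normal.conj_mem inferInstance _ x.2 g
    rw [h1, mem_bot] at h4
    have h5 : g * (x : G) * g⁻¹ = 1 := congrArg Subtype.val h4
    rw [conj_eq_one_iff] at h5
    rw [h5, orderOf_one] at hx1
    omega
  have hlast := last_le_of_normal h hn h2 hNb
  -- a uniform element outside `M`, and the essential subgroup
  obtain ⟨s, hsN, hs1, hs⟩ := exists_unif_avoiding h hn h2 N hNt
  have hsM : (s : G) ∉ M := fun h1 => hsN (mem_subgroupOf.2 h1)
  have hsU : U (P : Subgroup G) p (s : G) := by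
    unfold U
    rw [← card_centralizer_subtype]
    exact card_centralizer h (by omega) hs1 hs
  obtain ⟨g, hg, hgU⟩ := exists_fused P s.2 hsU (hstar s s.2)
  obtain ⟨E, hE, x, hxE, hxM, hxU⟩ := exists_essential P M s.2 hsM hsU hg hgU
  set F := groupFusionSystem (P : Subgroup G) with hF
  have hsat : F.IsSaturated p := FusionGroup.groupFusionSystem_isSaturated P
  have hEP : E ≤ (P : Subgroup G) := hE.1.1
  have hElt : E < (P : Subgroup G) := FusionEss.lt_of_essential P.2 hsat hE
  have hcent : (P : Subgroup G) ⊓ centralizer (E : Set G) ≤ E := hE.1.2 E (isConj_refl F hEP)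
  have hEp : IsPGroup p E := P.2.to_le hEP
  obtain ⟨r, hr⟩ := IsPGroup.iff_card.mp hEp
  have hx1 : x ≠ 1 := fun h1 => hxM (by rw [h1]; exact one_mem _)
  have hr2 : 2 ≤ r := by
    by_contra hlt
    have h3 : E = zpowers x := by
      symm
      apply Subgroup.eq_of_le_of_card_ge (by rwa [zpowers_le])
      rw [Nat.card_zpowers, hr]
      have h4 : p ∣ orderOf x := by
        obtain ⟨k, hk⟩ := (IsPGroup.iff_orderOf.1 hEp) ⟨x, hxE⟩
        rw [Subgroup.orderOf_mk] at hk
        rw [hk]
        apply dvd_pow_self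
        rintro rfl
        rw [pow_zero, orderOf_eq_one_iff] at hk
        exact hx1 hk
      have h5 : p ^ r ≤ p ^ 1 := Nat.pow_le_pow_right hp.out.pos (by omega)
      rw [pow_one] at h5
      exact h5.trans (Nat.le_of_dvd (orderOf_pos x) h4)
    have h4 : (P : Subgroup G) ⊓ centralizer ({x} : Set G) ≤ E := by
      refine le_trans ?_ hcent
      refine inf_le_inf le_rfl ?_
      rw [h3]
      intro y hy
      rw [mem_centralizer_iff]
      intro z hz
      obtain ⟨k, rfl⟩ := mem_zpowers_iff.1 hz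
      have h5 : Commute y x := mem_centralizer_singleton_iff.1 hy
      exact (h5.zpow_right k).symm
    have h5 := Subgroup.card_le_of_le h4
    rw [show Nat.card ((P : Subgroup G) ⊓ centralizer ({x} : Set G) : Subgroup G) = p ^ 2 from hxU, hr,
      Nat.pow_le_pow_iff_right hp1] at h5
    omega
  have hclE : Group.nilpotencyClass E = r - 1 := by
    refine BlackburnGen.maxclass_of_centralizer hr hr2 (s := ⟨x, hxE⟩) ?_
    rw [card_centralizer_subtype]
    refine (Subgroup.card_le_of_le (inf_le_inf hEP le_rfl)).trans ?_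
    exact (show Nat.card ((P : Subgroup G) ⊓ centralizer ({x} : Set G) : Subgroup G) = p ^ 2 from hxU).le
  have hEss : EssChain.Ess p (F.autGroup E) := EssChain.ess_of_essential P.2 hsat hE
  set K0 : Subgroup E := M.subgroupOf E with hK0
  have hK0inv : ∀ α ∈ F.autGroup E, ∀ y ∈ K0, α y ∈ K0 := by
    intro α hα y hy
    rw [mem_autGroup_iff hEP] at hα
    obtain ⟨-, -, k, hk⟩ := hα
    rw [hK0, mem_subgroupOf] at hy ⊢
    have h3 : ((α y : E) : G) = k * (y : G) * k⁻¹ := hk y
    rw [h3]
    exact Subgroup.Normal.conj_mem inferInstance _ hy k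
  have hK0t : K0 ≠ ⊤ := by
    intro h3
    exact hxM ((Subgroup.subgroupOf_eq_top.1 h3) hxE)
  -- the last term of the chain lies in `E`
  have hlastE : ∀ z ∈ H (n - 1), (z : G) ∈ E := by
    intro z hz
    apply hcent
    refine mem_inf.2 ⟨z.2, ?_⟩
    rw [mem_centralizer_iff]
    intro y hy
    have h3 := central h (by omega) hz (⟨y, hEP hy⟩ : (P : Subgroup G))
    exact congrArg Subtype.val h3
  rcases ess_maxclass hr hr2 hclE hEss with ⟨hr2', hK⟩ | ⟨hr3, hK⟩
  · -- `|E| = p²`
    exfalso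
    rcases hK K0 hK0inv with h3 | h3
    · obtain ⟨z, hz, hz'⟩ := h.exists_mem (i := n - 1) (by omega)
      have h4 : (⟨(z : G), hlastE z hz⟩ : E) ∈ K0 := by
        rw [hK0, mem_subgroupOf]
        exact mem_subgroupOf.1 (hlast hz)
      rw [h3, mem_bot] at h4
      have h5 : z = 1 := Subtype.ext (congrArg (fun t : E => (t : G)) h4)
      apply hz'
      rw [h5]; exact one_mem _
    · exact hK0t h3
  -- `|E| = p³`
  subst hr3
  have hKZ : K0 ≤ center E := (hK K0 hK0inv).resolve_right hK0t
  have hn4 : 4 ≤ n := by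
    have h3 := MaxClassNormal.lt_of_lt hElt hr hP
    omega
  set x' : (P : Subgroup G) := ⟨x, hEP hxE⟩ with hx'
  have hcx : Nat.card (centralizer ({x'} : Set (P : Subgroup G))) ≤ p ^ 2 := by
    rw [card_centralizer_subtype]
    exact (show Nat.card ((P : Subgroup G) ⊓ centralizer ({x} : Set G) : Subgroup G) = p ^ 2 from hxU).le
  obtain ⟨hx'1, hx'U⟩ := unif_of_card h hn4 h2 hcx
  set E' : Subgroup (P : Subgroup G) := E.subgroupOf (P : Subgroup G) with hE'
  have hcE' : Nat.card E' = p ^ 3 := by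
    rw [← hr]
    exact Nat.card_congr (Subgroup.subgroupOfEquivOfLe hEP).toEquiv
  have hGE : H (n - 2) ≤ E' := by
    obtain ⟨i, hi1, hin, hi⟩ := eq_of_invariant h hx'U (K := E' ⊓ H 1) inf_le_right (by
      intro y hy
      obtain ⟨hyE, hy1⟩ := mem_inf.1 hy
      refine mem_inf.2 ⟨?_, h.le 1 (h.comm_mem le_rfl x' hy1)⟩
      have hx'E : x' ∈ E' := hxE
      rw [commutatorElement_def]
      exact mul_mem (mul_mem (mul_mem hx'E hyE) (inv_mem hx'E)) (inv_mem hyE))
    rw [max_eq_right (by omega : 1 ≤ n)] at hin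
    have h3 := card_le_mul h (i := 0) (by omega) E'
    rw [h.zero, inf_top_eq, hcE', zero_add, hi, h.card i hin, ← pow_succ',
      Nat.pow_le_pow_iff_right hp1] at h3
    have h4 : H (n - 2) ≤ E' ⊓ H 1 := by
      rw [hi]; exact h.anti (by omega)
    exact h4.trans inf_le_left
  have hGN : ¬ H (n - 2) ≤ N := by
    intro h3
    obtain ⟨z, hz, hz'⟩ := h.exists_mem (i := n - 2) (by omega)
    have h4 := hx'U (n - 2) (by omega) (by omega) z hz hz'
    apply h4
    have hzE : (z : G) ∈ E := hGE hz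
    have h5 : (⟨(z : G), hzE⟩ : E) ∈ center E := hKZ (by
      rw [hK0, mem_subgroupOf]
      exact mem_subgroupOf.1 (h3 hz))
    have h6 := mem_center_iff.1 h5 ⟨x, hxE⟩
    have h7 : ⁅x', z⁆ = 1 := by
      rw [commutatorElement_eq_one_iff_mul_comm]
      exact Subtype.ext (congrArg (fun t : E => (t : G)) h6)
    rw [h7]; exact one_mem _
  -- position of `N` in the chain
  have hXp : IsPGroup p (P : Subgroup G) := P.2
  have hNle : N ≤ H (n - 1) := by
    have h3 : N.index ∣ p ^ n := by rw [← hP]; exact N.index_dvd_card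
    obtain ⟨a, han, ha⟩ := (Nat.dvd_prime_pow hp.out).1 h3
    have hlcs : ¬ (⊤ : Subgroup (P : Subgroup G)).lowerCentralSeries 1 ≤ N := by
      intro h4
      apply hGN
      refine le_trans ?_ h4
      rw [show (⊤ : Subgroup (P : Subgroup G)).lowerCentralSeries 1 = H 2 from (hH 2 le_rfl).symm]
      exact h.anti (by omega)
    rcases Nat.lt_or_ge a 2 with h4 | h4
    · exfalso
      apply hlcs
      have h5 : a = 0 ∨ a = 1 := by omega
      rcases h5 with rfl | rfl
      · rw [pow_zero, Subgroup.index_eq_one] at ha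
        rw [ha]; exact le_top
      · rw [pow_one] at ha
        exact commutator_le_of_index ha
    · have h5 := MaxClassNormal.eq_lcs_of_normal hn hP hcl N h4 ha
      rw [← hH a h4] at h5
      rw [h5]
      rcases Nat.lt_or_ge a (n - 1) with h6 | h6
      · exfalso
        apply hGN
        rw [h5]
        exact h.anti (by omega)
      · exact h.anti h6
  -- Tate
  have hTate : HasNormalPComplement p M := by
    refine TateApps.tate_frattini P M ?_
    intro y hy
    obtain ⟨hyM, hyP⟩ := mem_inf.1 hy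
    have h3 : (⟨y, hyP⟩ : (P : Subgroup G)) ∈ N := mem_subgroupOf.2 hyM
    have h4 : (⟨y, hyP⟩ : (P : Subgroup G)) ∈ commutator (P : Subgroup G) := by
      have h5 : H (n - 1) ≤ H 2 := h.anti (by omega)
      have h6 := h5 (hNle h3)
      rw [hH 2 le_rfl] at h6
      exact h6
    exact ⟨⟨y, hyP⟩, H70Frattini.commutator_le_frattini hXp h4, rfl⟩
  obtain ⟨K, hKn, hKp, k, hk⟩ := PNilp.hasNormalPComplement_iff.1 hTate
  have hKbot : K = ⊥ := by
    have hKchar : K.Characteristic := SmallSimple.characteristic_of_coprime K (by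
      rw [hk]
      exact Nat.Coprime.pow_right k ((Nat.Prime.coprime_iff_not_dvd hp.out).2 hKp).symm)
    have hKn' : (K.map M.subtype).Normal := inferInstance
    have h3 := hp'M (K.map M.subtype) hKn' (by
      rw [Subgroup.card_map_of_injective M.subtype_injective]; exact hKp)
    rwa [Subgroup.map_eq_bot_iff_of_injective _ M.subtype_injective] at h3
  have hMp : IsPGroup p M := by
    rw [hKbot, Subgroup.index_bot] at hk
    exact IsPGroup.of_card hk
  have hMP : M ≤ (P : Subgroup G) := OffenderGen.normal_le_sylow hMp P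
  have hcM : Nat.card M = Nat.card N := (Nat.card_congr (Subgroup.subgroupOfEquivOfLe hMP).toEquiv).symm
  have hNeq : N = H (n - 1) := le_antisymm hNle hlast
  refine ⟨?_, ?_⟩
  · have h3 : centralizer (M : Set G) = ⊤ := by
      apply hres _ inferInstance
      refine Nat.Coprime.coprime_dvd_left (Subgroup.index_dvd_of_le ?_) hcopP
      intro y hy
      rw [mem_centralizer_iff]
      intro z hz
      have h4 : (⟨z, hMP hz⟩ : (P : Subgroup G)) ∈ H (n - 1) := hNle (mem_subgroupOf.2 hz)
      have h5 := central h (by omega) h4 (⟨y, hy⟩ : (P : Subgroup G))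
      exact (congrArg Subtype.val h5).symm
    exact Subgroup.centralizer_eq_top_iff_subset.1 h3
  · rw [hcM, hNeq, h.card (n - 1) (by omega), show n - (n - 1) = 1 by omega, pow_one]

end Cfsg.Agent.Lib.BlackburnQS
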