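import Cfsg.Agent.Lib.BlkNil
import Cfsg.Agent.Lib.CoreBlk

/-!
# Nilpotent blocks of subgroups; blocks of normal subgroups of `p`-power index
-/

set_option autoImplicit false

namespace Cfsg.Agent.Lib.BlkNilIn

open Cfsg Cfsg.Agent.Lib.BlockRing Cfsg.Agent.Lib.BlockGA Cfsg.Agent.Lib.BlockIdem
open Cfsg.Agent.Lib.BlkIdem Cfsg.Agent.Lib.BlockAlg Cfsg.Agent.Lib.PairAlg Cfsg.Agent.Lib.PairMax
open Cfsg.Agent.Lib.BrauerPairs Cfsg.Agent.Lib.NormalPBlk Cfsg.Agent.Lib.DefPairs
open Cfsg.Agent.Lib.InducedPair Cfsg.Agent.Lib.BlkTransport Cfsg.Agent.Lib.StabQuot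
open Cfsg.Agent.Lib.AbDefect Cfsg.Agent.Lib.BlkFus Cfsg.Agent.Lib.BlkFusDef Cfsg.Agent.Lib.AbFusion
open Cfsg.Agent.Lib.FusionBasic Cfsg.Agent.Lib.FusionSat Cfsg.Agent.Lib.BlkSat Cfsg.Agent.Lib.BlkNil

universe u

section main

variable {p : ℕ} [hp : Fact p.Prime] {M : Ideal AlgInt} [hMm : M.IsMaximal] [hchar : CharP (Kf M) p]
  {G : Type u} [Group G] [Finite G]

/-- nilpotency of a block `f` of the subgroup `H`, read in `G` -/
def NilIn {k : Type*} [Field k] (p : ℕ) (H : Subgroup G) (f : MonoidAlgebra k G) : Prop :=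
  ∀ (R : Subgroup G) (e : MonoidAlgebra k G), IsPGroup p R → R ≤ H →
    IsBlk (H ⊓ Subgroup.centralizer (R : Set G)) e → BrauerMap.br R f * e = e →
    ∀ x ∈ H, x ∈ Subgroup.normalizer (R : Set G) → BrauerMap.cj x e = e → ¬ p ∣ orderOf x →
      x ∈ Subgroup.centralizer (R : Set G)

omit [Finite G] in
theorem inf_centralizer_subgroupOf {R H : Subgroup G} (hRH : R ≤ H) :
    (H ⊓ Subgroup.centralizer (R : Set G)).subgroupOf H =
      Subgroup.centralizer ((R.subgroupOf H : Subgroup H) : Set H) := by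
  ext x
  rw [Subgroup.mem_subgroupOf, mem_centralizer_subgroupOf hRH, Subgroup.mem_inf]
  exact ⟨fun h => h.2, fun h => ⟨x.2, h⟩⟩

theorem nil_inc_iff {H : Subgroup G} {w : MonoidAlgebra (Kf M) H} :
    Nil p w ↔ NilIn p H (inc H w) := by
  constructor
  · intro h R e hR hRH he hbr x hxH hxN hxe hxp
    have h1 : inc H (res H e) = e := inc_res H (BrauerMap.suppAlg_mono inf_le_left he.mem.1)
    have h2 : BPair p (R.subgroupOf H) (res H e) := by
      refine ⟨(isPGroup_subgroupOf_iff hRH).mpr hR, ?_⟩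
      rw [← inf_centralizer_subgroupOf hRH, ← isBlk_inc_iff inf_le_left, h1]
      exact he
    have h3 : BrauerMap.br (R.subgroupOf H) w * res H e = res H e := by
      apply inc_injective (M := M) H
      rw [map_mul, inc_br hRH, h1]
      exact hbr
    have h4 := h _ _ h2 h3 ⟨x, hxH⟩ ⟨(mem_normalizer_subgroupOf hRH).mpr hxN, ?_⟩ ?_
    · exact (mem_centralizer_subgroupOf hRH).mp h4
    · apply inc_injective (M := M) H
      rw [inc_cj, h1]
      exact hxe
    · rwa [Subgroup.orderOf_mk]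
  · intro h Q f hQf hbr x hx hxp
    set R := Q.map H.subtype with hRd
    have hRH : R ≤ H := map_subtype_le Q
    have hRQ : R.subgroupOf H = Q := subgroupOf_map_subtype Q
    have h4 := h R (inc H f) (hQf.1.map _) hRH ?_ ?_ x x.2 ?_ ?_ ?_
    · rw [← hRQ]
      exact (mem_centralizer_subgroupOf hRH).mpr h4
    · rw [isBlk_inc_iff inf_le_left, inf_centralizer_subgroupOf hRH, hRQ]
      exact hQf.2
    · rw [← inc_br hRH, ← map_mul, hRQ, hbr]
    · rw [← mem_normalizer_subgroupOf hRH, hRQ]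
      exact hx.1
    · rw [← inc_cj, hx.2]
    · rwa [Subgroup.orderOf_coe]

theorem isNilpotentBlock_sub_iff {H : Subgroup G} {b : Set (IrrCharacter H)} :
    IsNilpotentBlock p M b ↔ IsPBlock M b ∧ NilIn p H (bid M H b) := by
  rw [isNilpotentBlock_iff]
  exact and_congr_right fun _ => nil_inc_iff

theorem nilIn_top_iff {k : Type*} [Field k] {B : MonoidAlgebra k G} :
    NilIn p (⊤ : Subgroup G) B ↔ Nil p B := by
  constructor
  · intro h Q f hQf hbr x hx hxp
    exact h Q f hQf.1 le_top (by rw [top_inf_eq]; exact hQf.2) hbr x trivial hx.1 hx.2 hxp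
  · intro h R e hR _ he hbr x _ hxN hxe hxp
    rw [top_inf_eq] at he
    exact h R e ⟨hR, he⟩ hbr x ⟨hxN, hxe⟩ hxp

/-! ### local blocks of nilpotent blocks -/

theorem nilIn_centralizer {B : MonoidAlgebra (Kf M) G} (hB : IsBlk ⊤ B) (hnil : Nil p B)
    {Q : Subgroup G} {f : MonoidAlgebra (Kf M) G} (hQ : BPair p Q f) (hBf : BrauerMap.br Q B * f = f) :
    NilIn p (Subgroup.centralizer (Q : Set G)) f := by
  intro R e hR hRC he hbr x hxC hxN hxe hxp
  have hb := hasBlocks (M := M) (G := G)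
  have hRN := hRC.trans (centralizer_le_normalizer Q)
  have hRQ : IsPGroup p (R ⊔ Q : Subgroup G) := IsPGroup.to_sup_of_normal_right' hR hQ.1 hRN
  have hC : Subgroup.centralizer ((R ⊔ Q : Subgroup G) : Set G) =
      Subgroup.centralizer (Q : Set G) ⊓ Subgroup.centralizer (R : Set G) := by
    apply le_antisymm
    · exact le_inf (Subgroup.centralizer_le (SetLike.coe_subset_coe.mpr le_sup_right))
        (Subgroup.centralizer_le (SetLike.coe_subset_coe.mpr le_sup_left))
    · intro y hy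
      have h1 : R ⊔ Q ≤ Subgroup.centralizer ({y} : Set G) := by
        refine sup_le ?_ ?_
        · intro r hr
          rw [Subgroup.mem_centralizer_singleton_iff]
          exact Subgroup.mem_centralizer_iff.mp hy.2 r hr
        · intro r hr
          rw [Subgroup.mem_centralizer_singleton_iff]
          exact Subgroup.mem_centralizer_iff.mp hy.1 r hr
      rw [Subgroup.mem_centralizer_iff]
      intro r hr
      exact Subgroup.mem_centralizer_singleton_iff.mp (h1 hr)
  have hfix : ∀ y ∈ R ⊔ Q, BrauerMap.cj y f = f := by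
    have h1 : R ⊔ Q ≤ stab (Subgroup.normalizer (Q : Set G)) f := by
      refine sup_le ?_ ?_
      · intro y hy
        exact ⟨hRN hy, hQ.2.mem.2 y (hRC hy)⟩
      · intro y hy
        exact ⟨self_le_normalizer Q hy, mem_fixAlg_of_supp_centralizer hQ.2.mem.1 y hy⟩
    intro y hy
    exact (h1 hy).2
  have hbrQ : BrauerMap.br (R ⊔ Q) f = BrauerMap.br R f := by
    apply BrauerMap.ext_coeff
    intro g
    by_cases hg : g ∈ Subgroup.centralizer (R : Set G)
    · rw [BrauerMap.br_coeff_mem hg]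
      by_cases hg2 : g ∈ Subgroup.centralizer (Q : Set G)
      · rw [BrauerMap.br_coeff_mem (by rw [hC]; exact ⟨hg2, hg⟩)]
      · rw [BrauerMap.br_coeff_not_mem (by rw [hC]; exact fun h => hg2 h.1)]
        exact (hQ.2.mem.1 g hg2).symm
    · rw [BrauerMap.br_coeff_not_mem hg, BrauerMap.br_coeff_not_mem (by rw [hC]; exact fun h => hg h.2)]
  have hS : BPair p (R ⊔ Q) e := ⟨hRQ, by rw [hC]; exact he⟩
  have hn : NLE p Q f (R ⊔ Q) e := by
    refine ⟨hQ, hS, le_sup_right, sup_le hRN (self_le_normalizer Q), hfix, ?_⟩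
    rw [hbrQ]; exact hbr
  have h1 := nle_blk_up hB.mem hn hBf
  have h2 : x ∈ Subgroup.normalizer ((R ⊔ Q : Subgroup G) : Set G) := by
    apply mem_normalizer_of_cg
    unfold cg
    rw [Subgroup.map_sup]
    congr 1
    · exact cg_of_mem_normalizer hxN
    · exact cg_of_mem_centralizer hxC
  have h3 := hnil _ e hS h1 x ⟨h2, hxe⟩ hxp
  rw [hC] at h3
  exact h3.2

end main

end Cfsg.Agent.Lib.BlkNilIn
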