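import Cfsg.Agent.Lib.BlkNilIn

/-!
# Blocks and normal subgroups of `p`-power index
-/

set_option autoImplicit false

namespace Cfsg.Agent.Lib.BlkPPower

open Cfsg Cfsg.Agent.Lib.BlockRing Cfsg.Agent.Lib.BlockGA Cfsg.Agent.Lib.BlockIdem
open Cfsg.Agent.Lib.BlkIdem Cfsg.Agent.Lib.BlockAlg Cfsg.Agent.Lib.PairAlg Cfsg.Agent.Lib.PairMax
open Cfsg.Agent.Lib.BrauerPairs Cfsg.Agent.Lib.NormalPBlk Cfsg.Agent.Lib.DefPairs
open Cfsg.Agent.Lib.InducedPair Cfsg.Agent.Lib.BlkTransport Cfsg.Agent.Lib.StabQuot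
open Cfsg.Agent.Lib.AbDefect Cfsg.Agent.Lib.BlkFus Cfsg.Agent.Lib.BlkFusDef Cfsg.Agent.Lib.AbFusion
open Cfsg.Agent.Lib.FusionBasic Cfsg.Agent.Lib.FusionSat Cfsg.Agent.Lib.BlkSat Cfsg.Agent.Lib.BlkNil
open Cfsg.Agent.Lib.BlkNilIn

universe u

variable {p : ℕ} [hp : Fact p.Prime] {M : Ideal AlgInt} [hMm : M.IsMaximal] [hchar : CharP (Kf M) p]
  {G : Type u} [Group G] [Finite G]

omit hchar hMm [Finite G] in
theorem mem_of_pow_regular {C : Subgroup G} {x : G} (hx : ¬ p ∣ orderOf x) {n : ℕ}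
    (h : x ^ p ^ n ∈ C) : x ∈ C := by
  refine mem_of_pow_mem_coprime (a := p ^ n) (b := orderOf x) h ?_ ?_
  · rw [pow_orderOf_eq_one]; exact one_mem C
  · exact Nat.Coprime.pow_left _ ((Nat.Prime.coprime_iff_not_dvd hp.out).mpr hx)

omit hchar hMm hp [Finite G] in
theorem normal_subgroupOf {K L : Subgroup G} (hN : L ≤ Subgroup.normalizer (K : Set G)) :
    (K.subgroupOf L).Normal := by
  constructor
  intro m hm t
  rw [Subgroup.mem_subgroupOf] at hm ⊢
  exact (Subgroup.mem_normalizer_iff.mp (hN t.2) m).mp hm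

/-- blocks are supported on normal subgroups of `p`-power index -/
theorem supp_of_ppower (hM : IsPModular p M) {K L : Subgroup G}
    (hN : L ≤ Subgroup.normalizer (K : Set G)) (hpow : ∃ n, K.relIndex L = p ^ n)
    {f : MonoidAlgebra (Kf M) G} (hf : IsBlk L f) : f ∈ BrauerMap.suppAlg (Kf M) K := by
  have _hchar := hchar
  obtain ⟨b, hbb, rfl⟩ := exists_bid hf
  intro g hg
  by_cases hgL : g ∈ L
  · have h1 := bid_coeff_coe (M := M) L b ⟨g, hgL⟩
    rw [h1]
    have hreg : p ∣ orderOf (⟨g, hgL⟩ : L) := by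
      by_contra hcon
      apply hg
      obtain ⟨n, hn⟩ := hpow
      have h2 : g ^ p ^ n ∈ K := by
        have hnorm := normal_subgroupOf hN
        have h3 := Subgroup.pow_index_mem (K.subgroupOf L) (⟨g, hgL⟩ : L)
        have h4 : (K.subgroupOf L).index = p ^ n := hn
        rw [h4] at h3
        exact Subgroup.mem_subgroupOf.mp h3
      rw [Subgroup.orderOf_mk] at hcon
      exact mem_of_pow_regular hcon h2
    have h2 := BlockOsima.blockCoeff_eq_zero hM hbb hreg
    rw [h2, red_zero]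
  · exact bid_coeff_not_mem _ _ hgL

theorem blk_mem_ZAlg (hM : IsPModular p M) {K L : Subgroup G} (hKL : K ≤ L)
    (hN : L ≤ Subgroup.normalizer (K : Set G)) (hpow : ∃ n, K.relIndex L = p ^ n)
    {f : MonoidAlgebra (Kf M) G} (hf : IsBlk L f) : f ∈ BrauerMap.ZAlg (Kf M) K :=
  ⟨supp_of_ppower hM hN hpow hf, BrauerMap.fixAlg_anti hKL hf.mem.2⟩

omit hp hchar in
/-- the block covering a given block -/
theorem exists_cover {K L : Subgroup G} {e : MonoidAlgebra (Kf M) G} (he : IsBlk K e) :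
    ∃ f, IsBlk L f ∧ f * e ≠ 0 := by
  classical
  obtain ⟨s, hs, hsum⟩ := (hasBlocks (M := M) (G := G)) L
  by_contra hcon
  push Not at hcon
  apply he.ne_zero
  rw [← one_mul e, ← hsum, Finset.sum_mul]
  exact Finset.sum_eq_zero fun f hf => hcon f (hs f hf)

theorem exists_cover' (hM : IsPModular p M) {K L : Subgroup G} (hKL : K ≤ L)
    (hN : L ≤ Subgroup.normalizer (K : Set G)) (hpow : ∃ n, K.relIndex L = p ^ n)
    {e : MonoidAlgebra (Kf M) G} (he : IsBlk K e) : ∃ f, IsBlk L f ∧ f * e = e := by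
  obtain ⟨f, hf, hfe⟩ := exists_cover (L := L) he
  refine ⟨f, hf, ?_⟩
  exact (he.mul_idem (blk_mem_ZAlg hM hKL hN hpow hf) hf.idem).resolve_right hfe

omit hp hMm hchar in
theorem cover_unique {k : Type*} [Field k] {K L : Subgroup G} {e f g : MonoidAlgebra k G}
    (he : IsBlk K e) (hf : IsBlk L f) (hg : IsBlk L g) (h1 : f * e = e) (h2 : g * e = e) : f = g := by
  by_contra hne
  apply he.ne_zero
  have h3 := hf.orth hg hne
  rw [← h1, ← h2, ← mul_assoc, h3, zero_mul]

/-- the blocks covered by a block of `L` are `L`-conjugate -/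
theorem cover_conj {K L : Subgroup G} (hKL : K ≤ L)
    (hN : L ≤ Subgroup.normalizer (K : Set G))
    {e e' f : MonoidAlgebra (Kf M) G} (he : IsBlk K e) (he' : IsBlk K e') (hf : IsBlk L f)
    (h1 : f * e = e) (h2 : f * e' = e') : ∃ l ∈ L, BrauerMap.cj l e = e' := by
  classical
  have := Fintype.ofFinite L
  by_contra hcon
  push Not at hcon
  set s : Finset (MonoidAlgebra (Kf M) G) := Finset.univ.image (fun l : L => BrauerMap.cj (l : G) e)
    with hs
  have hsB : ∀ g ∈ s, IsBlk K g := by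
    intro g hg
    rw [hs, Finset.mem_image] at hg
    obtain ⟨l, _, rfl⟩ := hg
    exact he.cj_normalizer (hN l.2)
  set z := ∑ g ∈ s, g with hz
  have hzg : ∀ g ∈ s, z * g = g := by
    intro g hg
    rw [hz, Finset.sum_mul, Finset.sum_eq_single g]
    · exact (hsB g hg).idem
    · intro h hh hne
      exact (hsB h hh).orth (hsB g hg) hne
    · intro h; exact absurd hg h
  have hzz : z * z = z := by
    conv_lhs => rw [hz, Finset.mul_sum]
    exact Finset.sum_congr rfl fun g hg => hzg g hg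
  have hes : e ∈ s := by
    rw [hs, Finset.mem_image]
    exact ⟨1, Finset.mem_univ _, by rw [Subgroup.coe_one, BrauerMap.cj_one]⟩
  have hzK : z ∈ BrauerMap.ZAlg (Kf M) K := Subalgebra.sum_mem _ fun g hg => (hsB g hg).mem
  have hzL : z ∈ BrauerMap.ZAlg (Kf M) L := by
    refine ⟨BrauerMap.suppAlg_mono hKL hzK.1, ?_⟩
    intro x hx
    rw [hz, map_sum]
    refine Finset.sum_nbij (fun g => BrauerMap.cj x g) ?_ ?_ ?_ (fun _ _ => rfl)
    · intro g hg
      rw [hs, Finset.mem_image] at hg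
      obtain ⟨l, _, rfl⟩ := hg
      rw [hs, Finset.mem_image]
      exact ⟨⟨x, hx⟩ * l, Finset.mem_univ _, by rw [Subgroup.coe_mul, BrauerMap.cj_mul]⟩
    · intro a _ b _ hab
      have h3 := congrArg (BrauerMap.cj x⁻¹) hab
      simp only [BrauerMap.cj_inv_cj] at h3
      exact h3
    · intro g hg
      have hg' : g ∈ s := hg
      rw [hs, Finset.mem_image] at hg'
      obtain ⟨l, _, rfl⟩ := hg'
      refine ⟨BrauerMap.cj ((⟨x, hx⟩⁻¹ * l : L) : G) e, ?_, ?_⟩
      · show _ ∈ s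
        rw [hs, Finset.mem_image]
        exact ⟨_, Finset.mem_univ _, rfl⟩
      · show BrauerMap.cj x (BrauerMap.cj ((⟨x, hx⟩⁻¹ * l : L) : G) e) = _
        rw [← BrauerMap.cj_mul]
        congr 2
        show x * (x⁻¹ * (l : G)) = l
        group
  have hze' : z * e' = 0 := by
    rw [hz, Finset.sum_mul]
    refine Finset.sum_eq_zero fun g hg => (hsB g hg).orth he' ?_
    rw [hs, Finset.mem_image] at hg
    obtain ⟨l, _, rfl⟩ := hg
    exact hcon l l.2
  rcases hf.mul_idem hzL hzz with h | h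
  · apply he'.ne_zero
    rw [← h2, ← h, mul_assoc, h2, hze']
  · apply he.ne_zero
    have h3 : z * (f * e) = 0 := by rw [← mul_assoc, h, zero_mul]
    rw [h1, hzg e hes] at h3
    exact h3

/-- the setting `C_N(R) ≤ C_G(R)` -/
theorem inf_centralizer_ppower {N : Subgroup G} [N.Normal] (hN : ∃ n : ℕ, N.index = p ^ n)
    (R : Subgroup G) :
    (N ⊓ Subgroup.centralizer (R : Set G)) ≤ Subgroup.centralizer (R : Set G) ∧
      Subgroup.centralizer (R : Set G) ≤
        Subgroup.normalizer ((N ⊓ Subgroup.centralizer (R : Set G) : Subgroup G) : Set G) ∧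
      ∃ n : ℕ, (N ⊓ Subgroup.centralizer (R : Set G)).relIndex (Subgroup.centralizer (R : Set G)) = p ^ n := by
  refine ⟨inf_le_right, ?_, ?_⟩
  · intro x hx
    rw [Subgroup.mem_normalizer_iff]
    intro y
    have h1 : x * y * x⁻¹ ∈ N ↔ y ∈ N := by
      constructor
      · intro h
        have := Subgroup.Normal.conj_mem ‹N.Normal› _ h x⁻¹
        have e1 : x⁻¹ * (x * y * x⁻¹) * x⁻¹⁻¹ = y := by group
        rwa [e1] at this
      · intro h
        exact Subgroup.Normal.conj_mem ‹N.Normal› _ h x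
    have h2 : x * y * x⁻¹ ∈ Subgroup.centralizer (R : Set G) ↔ y ∈ Subgroup.centralizer (R : Set G) := by
      constructor
      · intro h
        have : y = x⁻¹ * (x * y * x⁻¹) * x := by group
        rw [this]
        exact mul_mem (mul_mem (inv_mem hx) h) hx
      · intro h
        exact mul_mem (mul_mem hx h) (inv_mem hx)
    rw [Subgroup.mem_inf, Subgroup.mem_inf, h1, h2]
  · obtain ⟨n, hn⟩ := hN
    rw [Subgroup.inf_relIndex_right]
    have h1 : N.relIndex (Subgroup.centralizer (R : Set G)) ∣ N.index :=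
      Subgroup.relIndex_dvd_index_of_normal N _
    rw [hn] at h1
    obtain ⟨m, _, hm⟩ := (Nat.dvd_prime_pow hp.out).mp h1
    exact ⟨m, hm⟩

theorem nilIn_of_nil (hM : IsPModular p M) {N : Subgroup G} [N.Normal]
    (hN : ∃ n : ℕ, N.index = p ^ n) {c : MonoidAlgebra (Kf M) G} (hc : IsBlk ⊤ c) (hnil : Nil p c) :
    NilIn p N c := by
  intro R e hR hRN he hbr x hxN hxR hxe hxp
  obtain ⟨h1, h2, h3⟩ := inf_centralizer_ppower (p := p) hN R
  obtain ⟨f, hf, hfe⟩ := exists_cover' hM h1 h2 h3 he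
  have hbrZ : BrauerMap.br R c ∈ BrauerMap.ZAlg (Kf M) (Subgroup.centralizer (R : Set G)) :=
    br_mem_ZAlg le_rfl (BrauerMap.fixAlg_anti le_top hc.mem.2)
  have hbri : BrauerMap.br R c * BrauerMap.br R c = BrauerMap.br R c :=
    br_idem hR hc.idem (fun x _ => hc.mem.2 x trivial)
  have hbrf : BrauerMap.br R c * f = f := by
    refine (hf.mul_idem hbrZ hbri).resolve_right fun h0 => he.ne_zero ?_
    have h4 : BrauerMap.br R c * (f * e) = 0 := by rw [← mul_assoc, h0, zero_mul]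
    rwa [hfe, hbr] at h4
  refine hnil R f ⟨hR, hf⟩ hbrf x ⟨hxR, ?_⟩ hxp
  have hcjf : IsBlk (Subgroup.centralizer (R : Set G)) (BrauerMap.cj x f) :=
    hf.cj_normalizer (normalizer_le_normalizer_centralizer R hxR)
  refine cover_unique he hcjf hf ?_ hfe
  have h5 := congrArg (BrauerMap.cj x) hfe
  rwa [map_mul, hxe] at h5

theorem nil_of_nilIn (hM : IsPModular p M) {N : Subgroup G} [N.Normal]
    (hN : ∃ n : ℕ, N.index = p ^ n) {c : MonoidAlgebra (Kf M) G} (hc : IsBlk ⊤ c)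
    (hnil : NilIn p N c) : Nil p c := by
  have hb := hasBlocks (M := M) (G := G)
  obtain ⟨n, hn⟩ := hN
  have hpowN : ∀ y : G, y ^ p ^ n ∈ N := fun y => by
    have := Subgroup.pow_index_mem N y
    rwa [hn] at this
  intro R e hRe hbr x hx hxp
  have hxN : x ∈ N := mem_of_pow_regular hxp (hpowN x)
  set R₀ := R ⊓ N with hR₀
  have hR₀p : IsPGroup p R₀ := hRe.1.to_le inf_le_left
  obtain ⟨e₀, he₀⟩ := exists_sub hb hRe (inf_le_left : R₀ ≤ R)
  have hRe₀ : BPair p R₀ e₀ := he₀.pair hRe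
  have hxR₀ : x ∈ Subgroup.normalizer (R₀ : Set G) := by
    rw [Subgroup.mem_normalizer_iff]
    intro y
    have h1 : x * y * x⁻¹ ∈ N ↔ y ∈ N := by
      constructor
      · intro h
        have := Subgroup.Normal.conj_mem ‹N.Normal› _ h x⁻¹
        have e1 : x⁻¹ * (x * y * x⁻¹) * x⁻¹⁻¹ = y := by group
        rwa [e1] at this
      · intro h
        exact Subgroup.Normal.conj_mem ‹N.Normal› _ h x
    rw [hR₀, Subgroup.mem_inf, Subgroup.mem_inf, h1, Subgroup.mem_normalizer_iff.mp hx.1 y]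
  have hxst : x ∈ stab (Subgroup.normalizer (R₀ : Set G)) e₀ := stab_of_stab hb hRe he₀ hx hxR₀
  have hbr₀ : BrauerMap.br R₀ c * e₀ = e₀ := ple_blk_down' hb hc he₀ hRe₀ hbr
  obtain ⟨h1, h2, h3⟩ := inf_centralizer_ppower (p := p) ⟨n, hn⟩ R₀
  obtain ⟨e', he', hee'⟩ := exists_blk_of_idem hb (blk_mem_ZAlg hM h1 h2 h3 hRe₀.2) hRe₀.2.idem
    hRe₀.2.ne_zero
  have hbr' : BrauerMap.br R₀ c * e' = e' := by
    rw [← hee', ← mul_assoc, hbr₀]
  -- `x` moves `e'` to a block covered by `e₀`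
  have hKx : x ∈ Subgroup.normalizer ((N ⊓ Subgroup.centralizer (R₀ : Set G) : Subgroup G) : Set G) := by
    rw [Subgroup.mem_normalizer_iff]
    intro y
    have h5 : x * y * x⁻¹ ∈ N ↔ y ∈ N := by
      constructor
      · intro h
        have := Subgroup.Normal.conj_mem ‹N.Normal› _ h x⁻¹
        have e1 : x⁻¹ * (x * y * x⁻¹) * x⁻¹⁻¹ = y := by group
        rwa [e1] at this
      · intro h
        exact Subgroup.Normal.conj_mem ‹N.Normal› _ h x
    rw [Subgroup.mem_inf, Subgroup.mem_inf, h5,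
      Subgroup.mem_normalizer_iff.mp (normalizer_le_normalizer_centralizer R₀ hxR₀) y]
  have hcje' : e₀ * BrauerMap.cj x e' = BrauerMap.cj x e' := by
    have h6 := congrArg (BrauerMap.cj x) hee'
    rwa [map_mul, hxst.2] at h6
  obtain ⟨l, hl, hle⟩ := cover_conj h1 h2 he' (he'.cj_normalizer hKx) hRe₀.2 hee' hcje'
  have hlN : l ∈ Subgroup.normalizer (R₀ : Set G) := centralizer_le_normalizer R₀ hl
  set t := l⁻¹ * x with ht
  have hte : BrauerMap.cj t e' = e' := by
    rw [ht, BrauerMap.cj_mul, ← hle, BrauerMap.cj_inv_cj]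
  have htN : t ∈ Subgroup.normalizer (R₀ : Set G) := mul_mem (inv_mem hlN) hxR₀
  obtain ⟨s, hs⟩ := exists_pow_regular (p := p) (t ^ p ^ n)
  have htst : t ∈ stab (Subgroup.normalizer (R₀ : Set G)) e' := ⟨htN, hte⟩
  have h7 := pow_mem (pow_mem htst (p ^ n)) (p ^ s)
  have htC : (t ^ p ^ n) ^ p ^ s ∈ Subgroup.centralizer (R₀ : Set G) :=
    hnil R₀ e' hR₀p inf_le_right he' hbr' _ (pow_mem (hpowN t) _) h7.1 h7.2 hs
  -- hence a `p`-power of `x` lies in the centralizer
  have hq : ∀ m : ℕ, (l * t) ^ m * (t ^ m)⁻¹ ∈ Subgroup.centralizer (R₀ : Set G) := by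
    intro m
    induction m with
    | zero => simp [one_mem]
    | succ m ih =>
      have e1 : (l * t) ^ (m + 1) * (t ^ (m + 1))⁻¹ =
          l * (t * ((l * t) ^ m * (t ^ m)⁻¹) * t⁻¹) := by
        rw [pow_succ', pow_succ']
        group
      rw [e1]
      refine mul_mem hl ?_
      exact (Subgroup.mem_normalizer_iff.mp (normalizer_le_normalizer_centralizer R₀ htN) _).mp ih
  have hxl : x = l * t := by rw [ht]; group
  have hxC₀ : x ∈ Subgroup.centralizer (R₀ : Set G) := by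
    refine mem_of_pow_regular (p := p) hxp (n := n + s) ?_
    have h8 := hq (p ^ (n + s))
    rw [← hxl] at h8
    have h9 : t ^ p ^ (n + s) ∈ Subgroup.centralizer (R₀ : Set G) := by
      rw [pow_add, pow_mul]; exact htC
    have : x ^ p ^ (n + s) = x ^ p ^ (n + s) * (t ^ p ^ (n + s))⁻¹ * t ^ p ^ (n + s) := by group
    rw [this]
    exact mul_mem h8 h9
  -- `x` centralizes `R / R₀` and `R₀`
  rw [Subgroup.mem_centralizer_iff]
  intro r hr
  have hrR : r ∈ R := hr
  set d := x * r * x⁻¹ * r⁻¹ with hd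
  have hdR : d ∈ R := mul_mem ((Subgroup.mem_normalizer_iff.mp hx.1 r).mp hrR) (inv_mem hrR)
  have hdN : d ∈ N := by
    have : d = x * (r * x⁻¹ * r⁻¹) := by rw [hd]; group
    rw [this]
    exact mul_mem hxN (Subgroup.Normal.conj_mem ‹N.Normal› _ (inv_mem hxN) r)
  have hxd : x * d * x⁻¹ = d := by
    have := Subgroup.mem_centralizer_iff.mp hxC₀ d ⟨hdR, hdN⟩
    rw [← this]; group
  have hpow : ∀ m : ℕ, x ^ m * r * (x ^ m)⁻¹ = d ^ m * r := by
    intro m
    induction m with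
    | zero => simp
    | succ m ih =>
      have e1 : x ^ (m + 1) * r * (x ^ (m + 1))⁻¹ = x * (x ^ m * r * (x ^ m)⁻¹) * x⁻¹ := by
        rw [pow_succ']; group
      have e2 : x * (d ^ m * r) * x⁻¹ = (x * d * x⁻¹) ^ m * (x * r * x⁻¹) := by
        rw [conj_pow]; group
      have e3 : x * r * x⁻¹ = d * r := by rw [hd]; group
      rw [e1, ih, e2, hxd, e3, pow_succ (d) m]
      exact (mul_assoc _ _ _).symm
  have h10 := hpow (orderOf x)
  rw [pow_orderOf_eq_one, one_mul, inv_one, mul_one] at h10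
  have h11 : d ^ orderOf x = 1 := mul_right_cancel (h10.symm.trans (one_mul r).symm)
  obtain ⟨m, hm⟩ := hRe.1 ⟨d, hdR⟩
  have h12 : d ^ p ^ m = 1 := congrArg Subtype.val hm
  have h13 : orderOf d = 1 := by
    refine Nat.eq_one_of_dvd_coprimes (a := p ^ m) (b := orderOf x) ?_
      (orderOf_dvd_of_pow_eq_one h12) (orderOf_dvd_of_pow_eq_one h11)
    exact Nat.Coprime.pow_left _ ((Nat.Prime.coprime_iff_not_dvd hp.out).mpr hxp)
  rw [orderOf_eq_one_iff] at h13
  have e3 : x * r * x⁻¹ = d * r := by rw [hd]; group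
  rw [h13, one_mul] at e3
  calc r * x = x * r * x⁻¹ * x := by rw [e3]
    _ = x * r := by group

end Cfsg.Agent.Lib.BlkPPower
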