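import Cfsg.Agent.Lib.BlockDefect

/-!
# Blocks are determined by the `p`-regular classes of the right defect
-/

set_option autoImplicit false
set_option linter.all false

namespace Cfsg.Agent.Lib.BlockReg

open Cfsg Cfsg.Agent.Lib.BlockRing Cfsg.Agent.Lib.BlockGA Cfsg.Agent.Lib.BlockIdem
open Cfsg.Agent.Lib.BlockOsima Cfsg.Agent.Lib.BlockDefect
open scoped ComplexConjugate Classical

universe u

variable {G : Type u} [Group G] [Finite G] {p : ℕ} {M : Ideal AlgInt}

/-- If the coefficient of `c` in `e_B` is a unit, `c` is `p`-regular and `|C(c)|_p ≤ p^d`. -/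
theorem fact_of_coeff (hM : IsPModular p M) {B : Set (IrrCharacter G)} (hB : IsPBlock M B) {c : G}
    (hc : ¬ MemLocalIdeal M (blockCoeff B c)) : ¬ p ∣ orderOf c ∧
      (Nat.card (Subgroup.centralizer ({c} : Set G))).factorization p ≤ blockDefect p B := by
  haveI := isPrime hM
  haveI : Fact p.Prime := ⟨hM.1⟩
  refine ⟨fun h => hc (by rw [blockCoeff_eq_zero hM hB h]; exact idl_zero), ?_⟩
  obtain ⟨D, hD⟩ := exists_defectGroup hM hB
  obtain ⟨x, P, hP, hle⟩ := minmax_coeff hM hB hD hc
  have h1 := sylC_card hP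
  have h2 := defectGroup_card hM hB hD
  have h3 : Nat.card P ≤ Nat.card D := by
    rw [← card_map_conj D x]
    exact Subgroup.card_le_of_le hle
  rw [h1, h2] at h3
  exact (Nat.pow_le_pow_iff_right hM.1.one_lt).1 h3

/-- If the central character at `c` is a unit, then `p^d ≤ |C(c)|_p`. -/
theorem fact_of_omega (hM : IsPModular p M) {B : Set (IrrCharacter G)} (hB : IsPBlock M B) {c : G}
    {χ : IrrCharacter G} (hχ : χ ∈ B) (hc : ¬ MemLocalIdeal M (centralChar (χ : G → ℂ) c)) :
    blockDefect p B ≤ (Nat.card (Subgroup.centralizer ({c} : Set G))).factorization p := by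
  haveI := isPrime hM
  haveI : Fact p.Prime := ⟨hM.1⟩
  obtain ⟨D, hD⟩ := exists_defectGroup hM hB
  obtain ⟨Q, hQ⟩ := sylIn_exists (p := p) (Subgroup.centralizer ({c} : Set G))
  obtain ⟨x, hx⟩ := minmax_omega hM hB hD ⟨χ, hχ, hc⟩ hQ
  have h1 := sylC_card hQ
  have h2 := defectGroup_card hM hB hD
  have h3 : Nat.card D ≤ Nat.card Q := by
    rw [← card_map_conj Q x]
    exact Subgroup.card_le_of_le hx
  rw [h1, h2] at h3
  exact (Nat.pow_le_pow_iff_right hM.1.one_lt).1 h3

/-- The `p`-regular classes of defect `σ`. -/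
def T (p : ℕ) (G : Type u) [Group G] (σ : ℕ) : Set (ConjClasses G) :=
  {C | ∃ g : G, ConjClasses.mk g = C ∧ ¬ p ∣ orderOf g ∧
    (Nat.card (Subgroup.centralizer ({g} : Set G))).factorization p = σ}

omit [Finite G] in
theorem orderOf_isConj {g h : G} (hc : IsConj g h) : orderOf g = orderOf h := by
  obtain ⟨c, rfl⟩ := isConj_iff.1 hc
  exact (orderOf_conj' g c).symm

theorem card_centralizer_isConj {g h : G} (hc : IsConj g h) :
    Nat.card (Subgroup.centralizer ({g} : Set G)) = Nat.card (Subgroup.centralizer ({h} : Set G)) := by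
  obtain ⟨c, rfl⟩ := isConj_iff.1 hc
  rw [centralizer_conj, card_map_conj]

theorem mem_T {σ : ℕ} {g : G} : ConjClasses.mk g ∈ T p G σ ↔ ¬ p ∣ orderOf g ∧
    (Nat.card (Subgroup.centralizer ({g} : Set G))).factorization p = σ := by
  constructor
  · rintro ⟨h, hh, h1, h2⟩
    rw [ConjClasses.mk_eq_mk_iff_isConj] at hh
    rw [← orderOf_isConj hh, ← card_centralizer_isConj hh]
    exact ⟨h1, h2⟩
  · intro h; exact ⟨g, rfl, h⟩

theorem mk_out (C : ConjClasses G) : ConjClasses.mk (Quotient.out C) = C := Quotient.out_eq C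

theorem omega_eB_congr (hM : IsPModular p M) [Fintype (ConjClasses G)] {B B' : Set (IrrCharacter G)}
    (hB : IsPBlock M B) (hB' : IsPBlock M B') {χ : IrrCharacter G} (hχ : χ ∈ B')
    (hd : blockDefect p B = blockDefect p B') :
    MemLocalIdeal M (omega (χ : G → ℂ) (eB B) - ∑ C ∈ (T p G (blockDefect p B)).toFinset,
      blockCoeff B (Quotient.out C) * centralChar (χ : G → ℂ) (Quotient.out C)) := by
  haveI := isPrime hM
  rw [omega_eq_sum χ.2.isClassFunction (eB_mem_center B)]
  have h1 : ∑ C : ConjClasses G, (eB B).coeff (Quotient.out C) * centralChar (χ : G → ℂ) (Quotient.out C)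
      = ∑ C ∈ (T p G (blockDefect p B)).toFinset, (blockCoeff B (Quotient.out C) * centralChar (χ : G → ℂ) (Quotient.out C))
      + ∑ C ∈ (T p G (blockDefect p B)).toFinsetᶜ, (blockCoeff B (Quotient.out C) * centralChar (χ : G → ℂ) (Quotient.out C)) := by
    rw [Finset.sum_add_sum_compl]
    rfl
  rw [h1, add_sub_cancel_left]
  refine idl_sum fun C hC => ?_
  by_contra hcon
  have h2 : ¬ MemLocalIdeal M (blockCoeff B (Quotient.out C)) := fun h =>
    hcon (idl_mul_right h (loc_centralChar χ.2 _))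
  have h3 : ¬ MemLocalIdeal M (centralChar (χ : G → ℂ) (Quotient.out C)) := fun h =>
    hcon (idl_mul_left (loc_blockCoeff hB _) h)
  have h4 := fact_of_coeff hM hB h2
  have h5 := fact_of_omega hM hB' hχ h3
  rw [Finset.mem_compl, Set.mem_toFinset] at hC
  apply hC
  rw [← mk_out C, mem_T]
  exact ⟨h4.1, le_antisymm h4.2 (by rw [hd]; exact h5)⟩

/-- Blocks of defect `d` are separated by the `p`-regular classes of defect `d`. -/
theorem sameBlock_iff_of_defect (hM : IsPModular p M) {d : ℕ} {χ ψ : IrrCharacter G}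
    (hχ : blockDefect p (blockOf M (χ : G → ℂ)) = d) (hψ : blockDefect p (blockOf M (ψ : G → ℂ)) = d)
    (h : ∀ x : G, ¬ p ∣ orderOf x → (Nat.card (Subgroup.centralizer ({x} : Set G))).factorization p = d →
      MemLocalIdeal M (centralChar (χ : G → ℂ) x - centralChar (ψ : G → ℂ) x)) :
    SameBlock M (χ : G → ℂ) (ψ : G → ℂ) := by
  haveI := isPrime hM
  have := Fintype.ofFinite (ConjClasses G)
  have h1 := omega_eB_congr hM (isPBlock_blockOf (M := M) χ) (isPBlock_blockOf χ) (mem_blockOf_self χ) rfl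
  have h2 := omega_eB_congr hM (isPBlock_blockOf (M := M) χ) (isPBlock_blockOf ψ) (mem_blockOf_self ψ)
    (by rw [hχ, hψ])
  rw [omega_eB_mem (mem_blockOf_self χ)] at h1
  by_contra hcon
  rw [omega_eB_not_mem (show ψ ∉ blockOf M (χ : G → ℂ) from hcon)] at h2
  rw [hχ] at h1 h2
  have h3 : MemLocalIdeal M (∑ C ∈ (T p G d).toFinset,
      blockCoeff (blockOf M (χ : G → ℂ)) (Quotient.out C) * centralChar (χ : G → ℂ) (Quotient.out C) -
      ∑ C ∈ (T p G d).toFinset,
      blockCoeff (blockOf M (χ : G → ℂ)) (Quotient.out C) * centralChar (ψ : G → ℂ) (Quotient.out C)) := by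
    rw [← Finset.sum_sub_distrib]
    refine idl_sum fun C hC => ?_
    rw [← mul_sub]
    rw [Set.mem_toFinset, ← mk_out C, mem_T] at hC
    exact idl_mul_left (loc_blockCoeff (isPBlock_blockOf χ) _) (h _ hC.1 hC.2)
  apply one_not_idl (M := M)
  have h4 := idl_sub (idl_add h1 h3) h2
  convert h4 using 1
  ring

/-- The number of blocks of defect `σ` is at most the number of `p`-regular classes of defect `σ`. -/
theorem card_blocks_le (hM : IsPModular p M) (σ : ℕ) :
    Nat.card {B : Set (IrrCharacter G) // IsPBlock M B ∧ blockDefect p B = σ} ≤ Nat.card (T p G σ) := by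
  haveI := isPrime hM
  have := Fintype.ofFinite (ConjClasses G)
  set I := {B : Set (IrrCharacter G) // IsPBlock M B ∧ blockDefect p B = σ} with hI
  have : Finite I := inferInstance
  have := Fintype.ofFinite I
  have hne : ∀ B : I, ∃ χ : IrrCharacter G, χ ∈ B.1 := fun B => isPBlock_nonempty B.2.1
  choose χ hχ using hne
  set W : Matrix I (T p G σ) ℂ := fun i C => centralChar (χ i : G → ℂ) (Quotient.out C.1) with hW
  set V : Matrix (T p G σ) I ℂ := fun C j => blockCoeff j.1 (Quotient.out C.1) with hV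
  have hWV : IsUnit (W * V) := by
    apply isUnit_of_sub_one_idlMat (M := M)
    intro i j
    rw [Matrix.sub_apply, Matrix.mul_apply, Matrix.one_apply]
    have h1 := omega_eB_congr hM j.2.1 i.2.1 (hχ i) (by rw [j.2.2, i.2.2])
    have h2 : omega (χ i : G → ℂ) (eB j.1) = if i = j then 1 else 0 := by
      split_ifs with hij
      · subst hij; exact omega_eB_mem (hχ i)
      · apply omega_eB_not_mem
        intro h
        exact hij (Subtype.ext (block_eq_of_mem i.2.1 j.2.1 (hχ i) h))
    rw [h2, j.2.2] at h1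
    have h3 : ∑ C : T p G σ, W i C * V C j = ∑ C ∈ (T p G σ).toFinset,
        blockCoeff j.1 (Quotient.out C) * centralChar (χ i : G → ℂ) (Quotient.out C) := by
      rw [Finset.sum_subtype (T p G σ).toFinset (p := fun C => C ∈ T p G σ)
        (fun x => Set.mem_toFinset)]
      refine Finset.sum_congr rfl fun C _ => ?_
      simp only [hW, hV]
      rw [mul_comm]
    rw [h3]
    exact idl_sub_symm h1
  have h1 := Matrix.rank_of_isUnit _ hWV
  have h2 := Matrix.rank_mul_le_left W V
  have h3 := Matrix.rank_le_card_width W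
  rw [Nat.card_eq_fintype_card, Nat.card_eq_fintype_card]
  omega

end Cfsg.Agent.Lib.BlockReg
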