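import Cfsg.Agent.Lib.BlkNil
import Cfsg.Agent.Lib.CoverUp
import Cfsg.Agent.Lib.H76BDim3

set_option autoImplicit false
set_option linter.all false

/-!
# Block algebras of minimal dimension are nilpotent (helper78)

`e` a central idempotent of `kG`, `P` a `p`-subgroup.  There is a double coset `P y P` with `e_y ≠ 0`,
`P ∩ P^y = C_P(y)` and such that the elements `x e`, `x ∈ P y P`, are linearly independent.
-/

namespace Cfsg.Agent.Lib.Brockhaus

open Cfsg.Agent.Lib.BrauerMap Cfsg.Agent.Lib.BlkIdem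
open MonoidAlgebra (single)

section abs

variable {p : ℕ} [hp : Fact p.Prime] {k : Type*} [Field k] [CharP k p] {G : Type*} [Group G] [Finite G]

/-- membership in the double coset -/
def InDC (P : Subgroup G) (y x : G) : Prop := ∃ a ∈ P, ∃ b ∈ P, x = a * y * b

theorem InDC.refl (P : Subgroup G) (y : G) : InDC P y y := ⟨1, one_mem _, 1, one_mem _, by group⟩

theorem InDC.symm {P : Subgroup G} {x y : G} (h : InDC P y x) : InDC P x y := by
  obtain ⟨a, ha, b, hb, rfl⟩ := h
  exact ⟨a⁻¹, inv_mem ha, b⁻¹, inv_mem hb, by group⟩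

theorem InDC.trans {P : Subgroup G} {x y z : G} (h : InDC P x y) (h' : InDC P y z) : InDC P x z := by
  obtain ⟨a, ha, b, hb, rfl⟩ := h
  obtain ⟨c, hc, d, hd, rfl⟩ := h'
  exact ⟨c * a, mul_mem hc ha, b * d, mul_mem hb hd, by group⟩

/-- the double coset setoid -/
def dcSet (P : Subgroup G) : Setoid G where
  r := fun y x => InDC P y x
  iseqv := ⟨fun x => InDC.refl P x, fun h => h.symm, fun h h' => h.trans h'⟩

/-- the sum of the double coset -/
noncomputable def hat (k : Type*) [Field k] (P : Subgroup G) (y : G) : MonoidAlgebra k G := by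
  classical exact ofFun fun x => if InDC P y x then (1 : k) else 0

theorem hat_coeff_mem {P : Subgroup G} {y x : G} (h : InDC P y x) : (hat k P y).coeff x = 1 := by
  classical
  simp [hat, h]

theorem hat_coeff_not_mem {P : Subgroup G} {y x : G} (h : ¬ InDC P y x) : (hat k P y).coeff x = 0 := by
  classical
  simp [hat, h]

/-- an element whose coefficients are constant on double cosets is killed by `e` if all double coset sums
in its support are -/
theorem mul_eq_zero_of_hat (P : Subgroup G) {h e : MonoidAlgebra k G}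
    (hc : ∀ y x, InDC P y x → h.coeff x = h.coeff y)
    (h0 : ∀ y, h.coeff y ≠ 0 → hat k P y * e = 0) : h * e = 0 := by
  classical
  have := Fintype.ofFinite G
  letI := dcSet P
  have h1 : h = ∑ q : Quotient (dcSet P), h.coeff q.out • hat k P q.out := by
    apply ext_coeff
    intro x
    rw [BrauerMap.sum_coeff, Finset.sum_eq_single (Quotient.mk (dcSet P) x)]
    · have h2 : InDC P (Quotient.mk (dcSet P) x).out x := Quotient.exact (Quotient.out_eq (Quotient.mk (dcSet P) x))
      rw [MonoidAlgebra.coeff_smul, Finsupp.smul_apply, hat_coeff_mem h2, smul_eq_mul, mul_one]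
      exact hc _ _ h2
    · intro q _ hq
      have h2 : ¬ InDC P q.out x := by
        intro h3
        apply hq
        rw [← Quotient.out_eq q]
        exact Quotient.sound h3
      rw [MonoidAlgebra.coeff_smul, Finsupp.smul_apply, hat_coeff_not_mem h2, smul_zero]
    · intro h; exact absurd (Finset.mem_univ _) h
  rw [h1, Finset.sum_mul]
  apply Finset.sum_eq_zero
  intro q _
  rw [smul_mul_assoc]
  by_cases hq : h.coeff q.out = 0
  · rw [hq, zero_smul]
  · rw [h0 _ hq, smul_zero]

/-- the sum of the elements of `P` -/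
noncomputable def sP (k : Type*) [Field k] (P : Subgroup G) : MonoidAlgebra k G := by
  classical exact ofFun fun x => if x ∈ P then (1 : k) else 0

theorem sP_mul_coeff [Fintype G] (P : Subgroup G) [Fintype P] (a : MonoidAlgebra k G) (x : G) :
    (sP k P * a).coeff x = ∑ u : P, a.coeff ((u : G) * x) := by
  classical
  rw [mul_coeff]
  have h1 : ∀ g : G, (sP k P).coeff g * a.coeff (g⁻¹ * x) = if g ∈ P then a.coeff (g⁻¹ * x) else 0 := by
    intro g
    have : (sP k P).coeff g = if g ∈ P then (1 : k) else 0 := by simp [sP]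
    rw [this]
    split_ifs
    · rw [one_mul]
    · rw [zero_mul]
  rw [Finset.sum_congr rfl (fun g _ => h1 g), ← Finset.sum_filter]
  rw [← Finset.sum_subtype (p := fun g => g ∈ P) (Finset.univ.filter fun g => g ∈ P) (by intro g; simp)
    (fun g => a.coeff (g * x))]
  refine Finset.sum_bij' (fun g _ => g⁻¹) (fun g _ => g⁻¹) ?_ ?_ ?_ ?_ ?_
  · intro g hg; simpa using hg
  · intro g hg; simpa using hg
  · intro g _; exact inv_inv g
  · intro g _; exact inv_inv g
  · intro g _; rfl

/-- left multiplication is free: `sP * e ≠ 0` -/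
theorem sP_mul_ne_zero {P : Subgroup G} (hP : IsPGroup p P) {e : MonoidAlgebra k G} (he : e * e = e)
    (hcen : ∀ a, a * e = e * a) (h0 : e ≠ 0) : sP k P * e ≠ 0 := by
  classical
  have := Fintype.ofFinite G
  have := Fintype.ofFinite P
  intro hcon
  let f : P → MonoidAlgebra k G →+ MonoidAlgebra k G := fun u => AddMonoidHom.mulLeft (single (u : G) 1)
  obtain ⟨v, hv0, hv, hvf⟩ := CoverUp.exists_fixed_vec (p := p) hP (V := MonoidAlgebra k G)
    (fun v => by rw [← Nat.cast_smul_eq_nsmul k, CharP.cast_eq_zero, zero_smul]) f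
    (fun g h v => by
      show single ((g * h : P) : G) (1 : k) * v = single (g : G) 1 * (single (h : G) 1 * v)
      rw [← mul_assoc, MonoidAlgebra.single_mul_single, one_mul]; rfl)
    (v0 := e) (by
      show single ((1 : P) : G) (1 : k) * e = e
      exact one_mul e) h0
  have hve : v * e = v := by
    have h2 : AddSubgroup.closure (Set.range fun g => f g e) ≤
        (AddMonoidHom.mulRight e - AddMonoidHom.id (MonoidAlgebra k G)).ker := by
      rw [AddSubgroup.closure_le]
      rintro _ ⟨u, rfl⟩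
      show single (u : G) (1 : k) * e * e - single (u : G) (1 : k) * e = 0
      rw [mul_assoc, he, sub_self]
    have h3 : v * e - v = 0 := h2 hv
    exact sub_eq_zero.mp h3
  -- v is constant on right cosets
  have hvc : ∀ u ∈ P, ∀ x, v.coeff (u * x) = v.coeff x := by
    intro u hu x
    have h2 : single ((⟨u, hu⟩ : P) : G) (1 : k) * v = v := hvf ⟨u, hu⟩
    have h3 := coeff_eq_of_eq h2 (u * x)
    rw [MonoidAlgebra.coeff_single_mul_apply, one_mul, inv_mul_cancel_left] at h3
    exact h3.symm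
  -- so v = sP * w
  letI := QuotientGroup.rightRel P
  let w : MonoidAlgebra k G := ofFun fun x => if (Quotient.mk (QuotientGroup.rightRel P) x).out = x then v.coeff x else 0
  have hw : v = sP k P * w := by
    apply ext_coeff
    intro x
    rw [sP_mul_coeff]
    have h4 : (Quotient.mk (QuotientGroup.rightRel P) x).out * x⁻¹ ∈ P := by
      have h5 := Quotient.exact (Quotient.out_eq (Quotient.mk (QuotientGroup.rightRel P) x)).symm
      exact QuotientGroup.rightRel_apply.mp h5
    rw [Finset.sum_eq_single ⟨_, h4⟩]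
    · show v.coeff x = (ofFun _).coeff ((Quotient.mk (QuotientGroup.rightRel P) x).out * x⁻¹ * x)
      rw [inv_mul_cancel_right]
      have h6 : Quotient.mk (QuotientGroup.rightRel P) (Quotient.mk (QuotientGroup.rightRel P) x).out =
        Quotient.mk (QuotientGroup.rightRel P) x := Quotient.out_eq _
      have h7 := hvc _ h4 x
      rw [inv_mul_cancel_right] at h7
      simp only [ofFun_coeff]
      rw [h6, if_pos rfl, h7]
    · intro u _ hu
      have h8 : Quotient.mk (QuotientGroup.rightRel P) ((u : G) * x) = Quotient.mk (QuotientGroup.rightRel P) x := by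
        apply Quotient.sound
        apply QuotientGroup.rightRel_apply.mpr
        have : x * ((u : G) * x)⁻¹ = (u : G)⁻¹ := by group
        rw [this]
        exact inv_mem u.2
      simp only [w, ofFun_coeff]
      rw [if_neg]
      intro h9
      apply hu
      apply Subtype.ext
      show (u : G) = (Quotient.mk (QuotientGroup.rightRel P) x).out * x⁻¹
      rw [← h8, h9]
      group
    · intro h; exact absurd (Finset.mem_univ _) h
  apply hv0
  calc v = v * e := hve.symm
    _ = sP k P * (w * e) := by rw [hw, mul_assoc]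
    _ = (sP k P * e) * w := by rw [hcen, mul_assoc]
    _ = 0 := by rw [hcon, zero_mul]

/-- coefficients of `sP * e` are constant on double cosets -/
theorem sP_mul_const {P : Subgroup G} {e : MonoidAlgebra k G} (hf : e ∈ fixAlg k P) (y x : G)
    (h : InDC P y x) : (sP k P * e).coeff x = (sP k P * e).coeff y := by
  classical
  have := Fintype.ofFinite G
  have := Fintype.ofFinite P
  obtain ⟨a, ha, b, hb, rfl⟩ := h
  rw [sP_mul_coeff, sP_mul_coeff]
  have h1 : ∀ u : P, e.coeff ((u : G) * (a * y * b)) = e.coeff ((b * u * a : G) * y) := by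
    intro u
    have h2 := coeff_conj hf hb ((u : G) * (a * y * b))
    have h3 : b * ((u : G) * (a * y * b)) * b⁻¹ = (b * u * a : G) * y := by group
    rw [h3] at h2
    exact h2.symm
  rw [Finset.sum_congr rfl (fun u _ => h1 u)]
  refine Finset.sum_bij' (fun u _ => (⟨b * u * a, mul_mem (mul_mem hb u.2) ha⟩ : P))
    (fun u _ => (⟨b⁻¹ * u * a⁻¹, mul_mem (mul_mem (inv_mem hb) u.2) (inv_mem ha)⟩ : P)) ?_ ?_ ?_ ?_ ?_
  · intro u _; exact Finset.mem_univ _
  · intro u _; exact Finset.mem_univ _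
  · intro u _; apply Subtype.ext; show b⁻¹ * (b * u * a) * a⁻¹ = (u : G); group
  · intro u _; apply Subtype.ext; show b * (b⁻¹ * u * a⁻¹) * a = (u : G); group
  · intro u _; rfl

/-- a nonzero coefficient of `sP * e` gives a good element in the coset -/
theorem exists_good {P : Subgroup G} (hP : IsPGroup p P) {e : MonoidAlgebra k G} (hf : e ∈ fixAlg k P)
    {y : G} (hy : (sP k P * e).coeff y ≠ 0) :
    ∃ u ∈ P, e.coeff (u * y) ≠ 0 ∧ ∀ w ∈ P, (u * y) * w * (u * y)⁻¹ ∈ P → w * (u * y) = (u * y) * w := by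
  classical
  have := Fintype.ofFinite G
  have := Fintype.ofFinite P
  rw [sP_mul_coeff] at hy
  let W : Subgroup G := P ⊓ P.comap (MulAut.conj y).toMonoidHom
  have hW : IsPGroup p W := hP.to_le inf_le_left
  have hWm : ∀ w : W, (w : G) ∈ P ∧ y * w * y⁻¹ ∈ P := fun w => ⟨w.2.1, w.2.2⟩
  let _act : MulAction W P :=
    { smul := fun w u => ⟨w * u * (y * (w : G)⁻¹ * y⁻¹), mul_mem (mul_mem (hWm w).1 u.2) (by
        have := inv_mem (hWm w).2
        have h2 : (y * (w : G) * y⁻¹)⁻¹ = y * (w : G)⁻¹ * y⁻¹ := by group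
        rwa [h2] at this)⟩
      one_smul := fun u => Subtype.ext (by show (1 : G) * u * (y * (1 : G)⁻¹ * y⁻¹) = u; group)
      mul_smul := fun w w' u => Subtype.ext (by
        show ((w : G) * w') * u * (y * ((w : G) * w')⁻¹ * y⁻¹) = w * (w' * u * (y * (w' : G)⁻¹ * y⁻¹)) * (y * (w : G)⁻¹ * y⁻¹)
        group) }
  have hsm : ∀ (w : W) (u : P), ((w • u : P) : G) = w * u * (y * (w : G)⁻¹ * y⁻¹) := fun _ _ => rfl
  have h1 := sum_eq_sum_fixed (k := k) (P := W) hW (X := P) (fun u => e.coeff ((u : G) * y)) (fun w u => by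
    show e.coeff (((w • u : P) : G) * y) = e.coeff ((u : G) * y)
    rw [hsm]
    have h2 := coeff_conj hf (hWm w).1 ((u : G) * y)
    rw [← h2]
    congr 1
    group)
  rw [h1] at hy
  obtain ⟨u, hu, hu0⟩ := Finset.exists_ne_zero_of_sum_ne_zero hy
  rw [Finset.mem_filter] at hu
  refine ⟨u, u.2, hu0, ?_⟩
  intro w hw hw'
  have h3 : y * w * y⁻¹ ∈ P := by
    have h4 : y * w * y⁻¹ = (u : G)⁻¹ * ((u : G) * y * w * ((u : G) * y)⁻¹) * u := by group
    rw [h4]
    exact mul_mem (mul_mem (inv_mem u.2) hw') u.2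
  have h5 := congrArg Subtype.val (hu.2 ⟨w, hw, h3⟩)
  rw [hsm] at h5
  have h6 : w * (u : G) * (y * w⁻¹ * y⁻¹) = u := h5
  calc w * ((u : G) * y) = (w * (u : G) * (y * w⁻¹ * y⁻¹)) * y * w := by group
    _ = (u : G) * y * w := by rw [h6]

/-- the good double coset -/
theorem exists_coset {P : Subgroup G} (hP : IsPGroup p P) {e : MonoidAlgebra k G} (he : e * e = e)
    (hcen : ∀ a, a * e = e * a) (hf : e ∈ fixAlg k P) (h0 : e ≠ 0) :
    ∃ y, e.coeff y ≠ 0 ∧ (∀ w ∈ P, y * w * y⁻¹ ∈ P → w * y = y * w) ∧ hat k P y * e ≠ 0 := by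
  by_contra hcon
  push Not at hcon
  apply sP_mul_ne_zero hP he hcen h0
  have h1 : sP k P * e = sP k P * e * e := by rw [mul_assoc, he]
  rw [h1]
  apply mul_eq_zero_of_hat P (sP_mul_const hf)
  intro y hy
  obtain ⟨u, hu, hu0, huc⟩ := exists_good hP hf hy
  have h2 := hcon _ hu0 huc
  have h3 : hat k P (u * y) = hat k P y := by
    apply ext_coeff
    intro x
    by_cases hx : InDC P y x
    · rw [hat_coeff_mem hx, hat_coeff_mem (InDC.trans (InDC.symm ⟨u, hu, 1, one_mem _, by group⟩) hx)]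
    · rw [hat_coeff_not_mem hx, hat_coeff_not_mem (fun h => hx (InDC.trans ⟨u, hu, 1, one_mem _, by group⟩ h))]
  rwa [h3] at h2

/-- linear independence on a double coset -/
theorem lin_indep {P : Subgroup G} (hP : IsPGroup p P) {e : MonoidAlgebra k G}
    (hcen : ∀ a, a * e = e * a) {y : G} (hy : hat k P y * e ≠ 0) {φ : MonoidAlgebra k G}
    (hφ : ∀ x, φ.coeff x ≠ 0 → InDC P y x) (h : φ * e = 0) : φ = 0 := by
  classical
  by_contra h0
  let f : P × P → MonoidAlgebra k G →+ MonoidAlgebra k G := fun u =>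
    (AddMonoidHom.mulLeft (single (u.1 : G) 1)).comp (AddMonoidHom.mulRight (single ((u.2 : G)⁻¹) 1))
  have hfa : ∀ (u : P × P) (a : MonoidAlgebra k G), f u a = single (u.1 : G) 1 * (a * single ((u.2 : G)⁻¹) 1) :=
    fun _ _ => rfl
  have hfc : ∀ (u : P × P) (a : MonoidAlgebra k G) (x : G), (f u a).coeff x = a.coeff ((u.1 : G)⁻¹ * x * u.2) := by
    intro u a x
    rw [hfa, MonoidAlgebra.coeff_single_mul_apply, one_mul, MonoidAlgebra.coeff_mul_single_apply, mul_one, inv_inv]
  have hPP : IsPGroup p (P × P) := by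
    rintro ⟨a, b⟩
    obtain ⟨n, hn⟩ := hP a
    obtain ⟨m, hm⟩ := hP b
    refine ⟨n + m, Prod.ext ?_ ?_⟩
    · show a ^ p ^ (n + m) = 1
      rw [pow_add, pow_mul, hn, one_pow]
    · show b ^ p ^ (n + m) = 1
      rw [add_comm, pow_add, pow_mul, hm, one_pow]
  obtain ⟨v, hv0, hv, hvf⟩ := CoverUp.exists_fixed_vec (p := p) hPP (V := MonoidAlgebra k G)
    (fun v => by rw [← Nat.cast_smul_eq_nsmul k, CharP.cast_eq_zero, zero_smul]) f
    (fun g h v => by
      apply ext_coeff
      intro x
      rw [hfc, hfc, hfc]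
      congr 1
      show ((g.1 * h.1 : P) : G)⁻¹ * x * ((g.2 * h.2 : P) : G) = (h.1 : G)⁻¹ * ((g.1 : G)⁻¹ * x * g.2) * h.2
      push_cast
      group)
    (v0 := φ) (by
      apply ext_coeff
      intro x
      rw [hfc]
      congr 1
      show (1 : G)⁻¹ * x * 1 = x
      group) h0
  have h2 : AddSubgroup.closure (Set.range fun g => f g φ) ≤ (AddMonoidHom.mulRight e).ker := by
    rw [AddSubgroup.closure_le]
    rintro _ ⟨u, rfl⟩
    show f u φ * e = 0
    rw [hfa, mul_assoc, mul_assoc, hcen, ← mul_assoc φ, h, zero_mul, mul_zero]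
  have hve : v * e = 0 := h2 hv
  have hvs : ∀ x, v.coeff x ≠ 0 → InDC P y x := by
    intro x
    contrapose
    intro hx
    let K : AddSubgroup (MonoidAlgebra k G) :=
      { carrier := {a | ∀ x, ¬ InDC P y x → a.coeff x = 0}
        zero_mem' := fun x _ => rfl
        add_mem' := fun {a b} ha hb x hx => by
          show a.coeff x + b.coeff x = 0
          rw [ha x hx, hb x hx, add_zero]
        neg_mem' := fun {a} ha x hx => by
          show - (a.coeff x) = 0
          rw [ha x hx, neg_zero] }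
    have h3 : AddSubgroup.closure (Set.range fun g => f g φ) ≤ K := by
      rw [AddSubgroup.closure_le]
      rintro _ ⟨u, rfl⟩ x hx
      show (f u φ).coeff x = 0
      rw [hfc]
      by_contra h4
      apply hx
      obtain ⟨a, ha, b, hb, hab⟩ := hφ _ h4
      refine ⟨(u.1 : G) * a, mul_mem u.1.2 ha, b * (u.2 : G)⁻¹, mul_mem hb (inv_mem u.2.2), ?_⟩
      calc x = u.1 * ((u.1 : G)⁻¹ * x * u.2) * (u.2 : G)⁻¹ := by group
        _ = _ := by rw [hab]; group
    exact h3 hv x hx
  have hvc : ∀ x, InDC P y x → v.coeff x = v.coeff y := by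
    rintro x ⟨a, ha, b, hb, rfl⟩
    have h3 := coeff_eq_of_eq (hvf (⟨a, ha⟩, ⟨b⁻¹, inv_mem hb⟩)) (a * y * b)
    rw [hfc] at h3
    rw [← h3]
    congr 1
    show a⁻¹ * (a * y * b) * b⁻¹ = y
    group
  have hv1 : v = v.coeff y • hat k P y := by
    apply ext_coeff
    intro x
    rw [MonoidAlgebra.coeff_smul, Finsupp.smul_apply]
    by_cases hx : InDC P y x
    · rw [hat_coeff_mem hx, smul_eq_mul, mul_one, hvc x hx]
    · rw [hat_coeff_not_mem hx, smul_zero]
      by_contra h4
      exact hx (hvs x h4)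
  have hvy : v.coeff y ≠ 0 := by
    intro h4
    rw [h4, zero_smul] at hv1
    exact hv0 hv1
  apply hy
  rw [hv1, smul_mul_assoc] at hve
  exact (smul_eq_zero.mp hve).resolve_left hvy

/-- the number of elements of the double coset -/
theorem card_dc {P : Subgroup G} (y : G) :
    Nat.card {x : G // InDC P y x} * Nat.card (P ⊓ P.comap (MulAut.conj y).toMonoidHom : Subgroup G) =
      Nat.card P * Nat.card P := by
  classical
  let _act : MulAction (P × P) G :=
    { smul := fun u x => (u.1 : G) * x * (u.2 : G)⁻¹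
      one_smul := fun x => by show (1 : G) * x * (1 : G)⁻¹ = x; group
      mul_smul := fun u v x => by
        show ((u.1 * v.1 : P) : G) * x * ((u.2 * v.2 : P) : G)⁻¹ = (u.1 : G) * ((v.1 : G) * x * (v.2 : G)⁻¹) * (u.2 : G)⁻¹
        push_cast
        group }
  have hsm : ∀ (u : P × P) (x : G), u • x = (u.1 : G) * x * (u.2 : G)⁻¹ := fun _ _ => rfl
  have h1 : Nat.card {x : G // InDC P y x} = Nat.card (MulAction.orbit (P × P) y) := by
    apply Nat.card_congr
    refine Equiv.subtypeEquivRight fun x => ?_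
    rw [MulAction.mem_orbit_iff]
    constructor
    · rintro ⟨a, ha, b, hb, rfl⟩
      exact ⟨(⟨a, ha⟩, ⟨b⁻¹, inv_mem hb⟩), by rw [hsm]; show a * y * b⁻¹⁻¹ = _; rw [inv_inv]⟩
    · rintro ⟨u, rfl⟩
      exact ⟨u.1, u.1.2, (u.2 : G)⁻¹, inv_mem u.2.2, rfl⟩
  have h2 : Nat.card (P ⊓ P.comap (MulAut.conj y).toMonoidHom : Subgroup G) =
      Nat.card (MulAction.stabilizer (P × P) y) := by
    apply Nat.card_congr
    refine ⟨fun w => ⟨(⟨y * w * y⁻¹, w.2.2⟩, ⟨w, w.2.1⟩), ?_⟩, fun s => ⟨(s.1.2 : G), s.1.2.2, ?_⟩, ?_, ?_⟩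
    · rw [MulAction.mem_stabilizer_iff, hsm]
      show y * (w : G) * y⁻¹ * y * (w : G)⁻¹ = y
      group
    · have h3 := s.2
      rw [MulAction.mem_stabilizer_iff, hsm] at h3
      show y * (s.1.2 : G) * y⁻¹ ∈ P
      have h4 : y * (s.1.2 : G) * y⁻¹ = s.1.1 := by
        calc y * (s.1.2 : G) * y⁻¹ = (s.1.1 * y * (s.1.2 : G)⁻¹) * (s.1.2 : G) * y⁻¹ := by rw [h3]
          _ = s.1.1 := by group
      rw [h4]
      exact s.1.1.2
    · intro w; rfl
    · intro s
      have h3 := s.2
      rw [MulAction.mem_stabilizer_iff, hsm] at h3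
      have h4 : y * (s.1.2 : G) * y⁻¹ = s.1.1 := by
        calc y * (s.1.2 : G) * y⁻¹ = (s.1.1 * y * (s.1.2 : G)⁻¹) * (s.1.2 : G) * y⁻¹ := by rw [h3]
          _ = s.1.1 := by group
      apply Subtype.ext
      apply Prod.ext
      · exact Subtype.ext h4
      · rfl
  rw [h1, h2, ← Nat.card_prod, Nat.card_congr (MulAction.orbitProdStabilizerEquivGroup (P × P) y), Nat.card_prod]

/-- extension by zero from the double coset -/
noncomputable def ext (k : Type*) [Field k] (P : Subgroup G) (y : G) :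
    ({x : G // InDC P y x} → k) →ₗ[k] MonoidAlgebra k G where
  toFun f := by classical exact ofFun fun x => if h : InDC P y x then f ⟨x, h⟩ else 0
  map_add' f g := by
    classical
    apply ext_coeff
    intro x
    rw [MonoidAlgebra.coeff_add, Finsupp.add_apply]
    simp only [ofFun_coeff]
    split_ifs
    · rfl
    · rw [add_zero]
  map_smul' c f := by
    classical
    apply ext_coeff
    intro x
    rw [MonoidAlgebra.coeff_smul, Finsupp.smul_apply]
    simp only [ofFun_coeff]
    split_ifs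
    · rfl
    · simp

theorem ext_coeff_mem (P : Subgroup G) (y : G) (f : {x : G // InDC P y x} → k) {x : G} (h : InDC P y x) :
    (ext k P y f).coeff x = f ⟨x, h⟩ := by
  classical
  simp only [ext, LinearMap.coe_mk, AddHom.coe_mk, ofFun_coeff]
  rw [dif_pos h]

theorem ext_coeff_not_mem (P : Subgroup G) (y : G) (f : {x : G // InDC P y x} → k) {x : G} (h : ¬ InDC P y x) :
    (ext k P y f).coeff x = 0 := by
  classical
  simp only [ext, LinearMap.coe_mk, AddHom.coe_mk, ofFun_coeff]
  rw [dif_neg h]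

/-- **main step**: if the dimension is at most the size of the double coset then everything is spanned by
the double coset -/
theorem spans {P : Subgroup G} (hP : IsPGroup p P) {e : MonoidAlgebra k G} (he : e * e = e)
    (hcen : ∀ a, a * e = e * a) {y : G} (hy : hat k P y * e ≠ 0)
    (hdim : Module.finrank k (H76BDim.PW k e e) ≤ Nat.card {x : G // InDC P y x}) (a : MonoidAlgebra k G) :
    ∃ w : MonoidAlgebra k G, (∀ x, w.coeff x ≠ 0 → InDC P y x) ∧ a * e = w * e := by
  classical
  have := Fintype.ofFinite G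
  have hm : ∀ a : MonoidAlgebra k G, a * e ∈ H76BDim.PW k e e := fun a =>
    ⟨by rw [← mul_assoc, ← hcen, mul_assoc, he], by rw [mul_assoc, he]⟩
  let T : ({x : G // InDC P y x} → k) →ₗ[k] H76BDim.PW k e e :=
    LinearMap.codRestrict _ ((LinearMap.mulRight k e).comp (ext k P y)) fun f => hm _
  have hT : ∀ f, ((T f : H76BDim.PW k e e) : MonoidAlgebra k G) = ext k P y f * e := fun _ => rfl
  have hinj : Function.Injective T := by
    rw [← LinearMap.ker_eq_bot, LinearMap.ker_eq_bot']
    intro f hf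
    have h1 : ext k P y f * e = 0 := by rw [← hT, hf]; rfl
    have h2 := lin_indep hP hcen hy (φ := ext k P y f) (fun x hx => by
      by_contra h3
      exact hx (ext_coeff_not_mem P y f h3)) h1
    funext x
    rw [← ext_coeff_mem P y f x.2, h2]
    rfl
  have hfr : Module.finrank k ({x : G // InDC P y x} → k) = Nat.card {x : G // InDC P y x} := by
    rw [Module.finrank_fintype_fun_eq_card, Nat.card_eq_fintype_card]
  haveI : FiniteDimensional k (MonoidAlgebra k G) := inferInstance
  have h4 := LinearMap.finrank_le_finrank_of_injective hinj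
  have h5 : Module.finrank k ({x : G // InDC P y x} → k) = Module.finrank k (H76BDim.PW k e e) := by omega
  have hsurj := (LinearMap.injective_iff_surjective_of_finrank_eq_finrank h5).mp hinj
  obtain ⟨f, hf⟩ := hsurj ⟨a * e, hm a⟩
  refine ⟨ext k P y f, fun x hx => ?_, ?_⟩
  · by_contra h3
    exact hx (ext_coeff_not_mem P y f h3)
  · rw [← hT, hf]

/-- the fusion is inner -/
theorem inner {P : Subgroup G} (hP : IsPGroup p P) {e : MonoidAlgebra k G} (he : e * e = e)
    (hcen : ∀ a, a * e = e * a) (hf : e ∈ fixAlg k (⊤ : Subgroup G)) {y : G} (hy : hat k P y * e ≠ 0)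
    (hyc : ∀ w ∈ P, y * w * y⁻¹ ∈ P → w * y = y * w)
    (hdim : Module.finrank k (H76BDim.PW k e e) ≤ Nat.card {x : G // InDC P y x})
    {Q : Subgroup G} (hQP : Q ≤ P) (hbr : br Q e ≠ 0) {n : G} (hn : n ∈ Subgroup.normalizer (Q : Set G)) :
    ∃ u ∈ P, u⁻¹ * n ∈ Subgroup.centralizer (Q : Set G) := by
  classical
  have := Fintype.ofFinite G
  have hQ : IsPGroup p Q := hP.to_le hQP
  have hn' : ∀ u ∈ Q, n⁻¹ * u * n ∈ Q := by
    intro u hu
    have h1 := (Subgroup.mem_normalizer_iff.mp hn (n⁻¹ * u * n)).mpr (by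
      have : n * (n⁻¹ * u * n) * n⁻¹ = u := by group
      rwa [this])
    exact h1
  obtain ⟨w, hw, hwe⟩ := spans hP he hcen hy hdim (single n 1)
  let w' : MonoidAlgebra k G := w * single n⁻¹ 1
  have hw'c : ∀ x, w'.coeff x = w.coeff (x * n) := by
    intro x
    show (w * single n⁻¹ (1 : k)).coeff x = _
    rw [MonoidAlgebra.coeff_mul_single_apply, mul_one, inv_inv]
  have hw'e : w' * e = e := by
    show w * single n⁻¹ 1 * e = e
    calc w * single n⁻¹ (1 : k) * e = (w * e) * single n⁻¹ 1 := by rw [mul_assoc, hcen, mul_assoc]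
      _ = single n 1 * e * single n⁻¹ 1 := by rw [hwe]
      _ = (single n 1 * single n⁻¹ 1) * e := by rw [mul_assoc, ← hcen, mul_assoc]
      _ = e := by
        rw [MonoidAlgebra.single_mul_single, mul_one, mul_inv_cancel]
        exact one_mul e
  have hfix : w' ∈ fixAlg k Q := by
    intro u hu
    have h1 : (cj u w' - w') * e = 0 := by
      have h2 : cj u e = e := hf u (Subgroup.mem_top u)
      rw [sub_mul, hw'e]
      nth_rewrite 1 [← h2]
      rw [← map_mul, hw'e, h2, sub_self]
    have h3 : (cj u w' - w') * single n 1 = 0 := by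
      apply lin_indep hP hcen hy
      · intro x hx
        rw [MonoidAlgebra.coeff_mul_single_apply, mul_one, MonoidAlgebra.coeff_sub, Finsupp.sub_apply,
          cj_coeff, hw'c, hw'c] at hx
        by_cases h4 : w.coeff (x * n⁻¹ * n) = 0
        · rw [h4, sub_zero] at hx
          obtain ⟨a, ha, b, hb, hab⟩ := hw _ hx
          refine ⟨u * a, mul_mem (hQP hu) ha, b * (n⁻¹ * u⁻¹ * n), mul_mem hb (hQP (hn' _ (inv_mem hu))), ?_⟩
          calc x = u * (u⁻¹ * (x * n⁻¹) * u * n) * (n⁻¹ * u⁻¹ * n) := by group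
            _ = _ := by rw [hab]; group
        · have h5 := hw _ h4
          rwa [inv_mul_cancel_right] at h5
      · calc (cj u w' - w') * single n 1 * e = (cj u w' - w') * e * single n 1 := by
              rw [mul_assoc, hcen, mul_assoc]
          _ = 0 := by rw [h1, zero_mul]
    have h4 : (cj u w' - w') = 0 := by
      calc cj u w' - w' = (cj u w' - w') * (single n 1 * single n⁻¹ 1) := by
            rw [MonoidAlgebra.single_mul_single, mul_one, mul_inv_cancel]
            exact (mul_one _).symm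
        _ = 0 := by rw [← mul_assoc, h3, zero_mul]
    exact sub_eq_zero.mp h4
  have h6 : br Q w' * br Q e = br Q e := by
    rw [← br_mul (p := p) hQ hfix (fixAlg_anti le_top hf), hw'e]
  have h7 : br Q w' ≠ 0 := by
    intro h
    rw [h, zero_mul] at h6
    exact hbr h6.symm
  obtain ⟨z, hz⟩ : ∃ z, (br Q w').coeff z ≠ 0 := by
    by_contra hcon
    push Not at hcon
    exact h7 (BrauerMap.ext_coeff hcon)
  have hzC : z ∈ Subgroup.centralizer (Q : Set G) := by
    by_contra h
    exact hz (br_coeff_not_mem h _)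
  rw [br_coeff_mem hzC, hw'c] at hz
  obtain ⟨a, ha, b, hb, hab⟩ := hw _ hz
  have hzq : ∀ u ∈ Q, z⁻¹ * u * z = u := by
    intro u hu
    have h8 := Subgroup.mem_centralizer_iff.mp hzC u hu
    calc z⁻¹ * u * z = z⁻¹ * (u * z) := by group
      _ = u := by rw [h8]; group
  have key : ∀ u ∈ Q, a⁻¹ * u * a = b * (n⁻¹ * u * n) * b⁻¹ := by
    intro u hu
    have h9 : y⁻¹ * (a⁻¹ * u * a) * y = b * (n⁻¹ * u * n) * b⁻¹ := by
      calc y⁻¹ * (a⁻¹ * u * a) * y = b * ((a * y * b)⁻¹ * u * (a * y * b)) * b⁻¹ := by group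
        _ = b * ((z * n)⁻¹ * u * (z * n)) * b⁻¹ := by rw [hab]
        _ = b * (n⁻¹ * (z⁻¹ * u * z) * n) * b⁻¹ := by group
        _ = _ := by rw [hzq u hu]
    have h10 : b * (n⁻¹ * u * n) * b⁻¹ ∈ P := mul_mem (mul_mem hb (hQP (hn' u hu))) (inv_mem hb)
    have h11 : y * (b * (n⁻¹ * u * n) * b⁻¹) * y⁻¹ ∈ P := by
      rw [← h9]
      have : y * (y⁻¹ * (a⁻¹ * u * a) * y) * y⁻¹ = a⁻¹ * u * a := by group
      rw [this]
      exact mul_mem (mul_mem (inv_mem ha) (hQP hu)) ha
    have h12 := hyc _ h10 h11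
    calc a⁻¹ * u * a = y * (y⁻¹ * (a⁻¹ * u * a) * y) * y⁻¹ := by group
      _ = y * (b * (n⁻¹ * u * n) * b⁻¹) * y⁻¹ := by rw [h9]
      _ = (b * (n⁻¹ * u * n) * b⁻¹) * y * y⁻¹ := by rw [h12]
      _ = _ := by group
  refine ⟨a * b, mul_mem ha hb, ?_⟩
  rw [Subgroup.mem_centralizer_iff]
  intro u hu
  -- conjugation by n on Q
  have hn2 : n * u * n⁻¹ ∈ Q := (Subgroup.mem_normalizer_iff.mp hn u).mp hu
  have h13 := key _ hn2
  have h14 : n⁻¹ * (n * u * n⁻¹) * n = u := by group
  rw [h14] at h13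
  -- a⁻¹ (n u n⁻¹) a = b u b⁻¹
  calc u * ((a * b)⁻¹ * n) = b⁻¹ * (b * u * b⁻¹) * a⁻¹ * n := by group
    _ = b⁻¹ * (a⁻¹ * (n * u * n⁻¹) * a) * a⁻¹ * n := by rw [h13]
    _ = (a * b)⁻¹ * n * u := by group

end abs

section main

open Cfsg Cfsg.Agent.Lib.BlockRing Cfsg.Agent.Lib.BlockGA Cfsg.Agent.Lib.BlockAlg
open Cfsg.Agent.Lib.PairAlg Cfsg.Agent.Lib.PairMax Cfsg.Agent.Lib.BrauerPairs
open Cfsg.Agent.Lib.BlkNil

universe u

variable {p : ℕ} [hp : Fact p.Prime] {M : Ideal AlgInt} [hMm : M.IsMaximal] [hchar : CharP (Kf M) p]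
  {G : Type u} [Group G] [Finite G] {B : Set (IrrCharacter G)} {D : Subgroup G}

theorem nil_of_dim (hB : IsPBlock M B) (hD : DG p ⊤ D (bidG M B)) {a d : ℕ}
    (ha : (Nat.card G).factorization p = a) (hd : Nat.card D = p ^ d)
    (hdim : Module.finrank (Kf M) (H76BDim.PW (Kf M) (bidG M B) (bidG M B)) ≤ p ^ (2 * a - d)) :
    Nil p (bidG M B) := by
  intro Q f hQf hBf x hx hxp
  have hblk := isBlk_bidG (M := M) hB
  have hcen : ∀ z : MonoidAlgebra (Kf M) G, z * bidG M B = bidG M B * z := fun z =>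
    H76BDim.bI_central hB z
  have hbr : br Q (bidG M B) ≠ 0 := by
    intro h
    rw [h, zero_mul] at hBf
    exact hQf.2.ne_zero hBf.symm
  obtain ⟨P, hQP⟩ := hQf.1.exists_le_sylow
  have hPc : Nat.card P = p ^ a := by rw [P.card_eq_multiplicity, ha]
  obtain ⟨y, hy0, hyc, hy⟩ := exists_coset (P := (P : Subgroup G)) P.isPGroup' hblk.idem hcen
    (fixAlg_anti le_top hblk.mem.2) hblk.ne_zero
  have hW : Nat.card ((P : Subgroup G) ⊓ (P : Subgroup G).comap (MulAut.conj y).toMonoidHom : Subgroup G) ≤ p ^ d := by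
    rw [← hd]
    obtain ⟨x, _, hx⟩ := hD.dfn y hy0 ((P : Subgroup G) ⊓ (P : Subgroup G).comap (MulAut.conj y).toMonoidHom)
      le_top (P.isPGroup'.to_le inf_le_left) (by
        rw [Subgroup.mem_centralizer_iff]
        intro w hw
        exact hyc w hw.1 hw.2)
    refine Nat.card_le_card_of_injective (fun w => (⟨x⁻¹ * (w : G) * x, hx w w.2⟩ : D)) ?_
    intro w w' h
    have h1 : x⁻¹ * (w : G) * x = x⁻¹ * (w' : G) * x := congrArg Subtype.val h
    exact Subtype.ext (mul_left_cancel (mul_right_cancel h1))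
  have hcd := card_dc (P := (P : Subgroup G)) y
  have hda : d ≤ 2 * a := by
    have h1 : p ^ d ∣ Nat.card G := hd ▸ Subgroup.card_subgroup_dvd_card D
    have h2 := (hp.out.pow_dvd_iff_le_factorization Nat.card_pos.ne').mp h1
    omega
  have hΩ : p ^ (2 * a - d) ≤ Nat.card {x : G // InDC (P : Subgroup G) y x} := by
    have h1 : Nat.card (P : Subgroup G) = p ^ a := hPc
    rw [h1, ← pow_add, ← two_mul] at hcd
    have h2 : p ^ (2 * a - d) * p ^ d = p ^ (2 * a) := by rw [← pow_add]; congr 1; omega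
    have h3 : p ^ (2 * a - d) * p ^ d ≤ Nat.card {x : G // InDC (P : Subgroup G) y x} * p ^ d := by
      rw [h2, ← hcd]
      exact Nat.mul_le_mul_left _ hW
    exact Nat.le_of_mul_le_mul_right h3 (pow_pos hp.out.pos _)
  obtain ⟨u, hu, hux⟩ := inner (P := (P : Subgroup G)) P.isPGroup' hblk.idem hcen hblk.mem.2 hy hyc
    (hdim.trans hΩ) hQP hbr hx.1
  obtain ⟨m, hm⟩ := P.isPGroup' ⟨u, hu⟩
  exact centralizes_of_act hxp hx.1 (congrArg Subtype.val hm : u ^ p ^ m = 1) hux

end main

end Cfsg.Agent.Lib.Brockhaus
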