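import Cfsg.Agent.Lib.BryTL2
import Cfsg.Agent.Lib.Fitting

/-!
Bryukhanova's theorem: the invariant sections of the Fitting subgroup (helper59).
-/

set_option autoImplicit false

namespace Cfsg.Agent.Lib.BryFin

open Module Subgroup Cfsg Cfsg.Agent.Lib.WielandtFix Cfsg.Agent.Lib.SympFix Cfsg.Agent.Lib.WtGroup
  Cfsg.Agent.Lib.Weights Cfsg.Agent.Lib.CoprimeAction Cfsg.Agent.Lib.CoprimeAction2
  Cfsg.Agent.Lib.SubgroupTools Cfsg.Agent.Lib.Ward Cfsg.Agent.Lib.FpfPQ3 Cfsg.Agent.Lib.BryLoc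
  Cfsg.Agent.Lib.BryTL
open scoped commutatorElement

universe u v w

section Grp

variable {G : Type u} [Group G] [Finite G]

/-- a minimal invariant section of the Fitting subgroup -/
theorem exists_Q (hsol : Group.IsSolvable G) (hO2 : pCore 2 G = ⊥) {N B : Subgroup G}
    (hB : IsPGroup 2 B) (hNB : N ≤ normalizer (B : Set G)) (hBN : B ≤ N) {z : G} (hzB : z ∈ B)
    (hz1 : z ≠ 1) (hzQ : ∀ Q : Subgroup G, N ≤ normalizer (Q : Set G) → (∀ y ∈ Q, Commute z y) →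
      B ≤ centralizer (Q : Set G)) :
    ∃ (r : ℕ) (Q : Subgroup G), r.Prime ∧ r ≠ 2 ∧ IsPGroup r Q ∧ N ≤ normalizer (Q : Set G) ∧
      ⁅Q, B⁆ = Q ∧ (∀ z ∈ ⁅Q, Q⁆, ∀ y ∈ Q, Commute y z) ∧ (∀ x ∈ Q, x ^ r ∈ ⁅Q, Q⁆) ∧
      Q ⊓ centralizer (B : Set G) ≤ ⁅Q, Q⁆ ∧ (¬ ∀ y ∈ Q, Commute z y) ∧
      ∀ Q' < Q, N ≤ normalizer (Q' : Set G) → B ≤ centralizer (Q' : Set G) := by
  have h2f : Fact (Nat.Prime 2) := ⟨Nat.prime_two⟩
  -- `z` does not centralize some `O_r(G)`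
  obtain ⟨r, hr, hzr⟩ : ∃ r : ℕ, r.Prime ∧ ¬ ∀ y ∈ pCore r G, Commute z y := by
    by_contra hcon
    push Not at hcon
    have h1 : fittingSubgroup G ≤ centralizer ({z} : Set G) := by
      rw [Fitting.fittingSubgroup_eq_iSup_pCore]
      refine iSup_le fun p y hy => ?_
      rw [mem_centralizer_singleton_iff]
      exact ((hcon p p.2 y hy).eq).symm
    have h2 : z ∈ centralizer (fittingSubgroup G : Set G) := by
      rw [mem_centralizer_iff]
      intro y hy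
      exact mem_centralizer_singleton_iff.1 (h1 hy)
    have h3 := Fitting.centralizer_fittingSubgroup_le h2
    -- the Fitting subgroup has odd order
    have h4 : ¬ 2 ∣ Nat.card (fittingSubgroup G) := by
      intro h5
      have hnil : Group.IsNilpotent (fittingSubgroup G) := Fitting.isNilpotent_fittingSubgroup
      obtain ⟨S⟩ : Nonempty (Sylow 2 (fittingSubgroup G)) := inferInstance
      have hSn : (S : Subgroup (fittingSubgroup G)).Normal := inferInstance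
      have hSc : (S : Subgroup (fittingSubgroup G)).Characteristic := S.characteristic_of_normal hSn
      have hFn : (fittingSubgroup G).Normal := Fitting.normal_fittingSubgroup
      have h6 : (S : Subgroup (fittingSubgroup G)).map (fittingSubgroup G).subtype ≤ pCore 2 G :=
        Fitting.le_pCore 2 inferInstance (S.2.map _)
      rw [hO2, le_bot_iff, Subgroup.map_eq_bot_iff_of_injective _
        (fittingSubgroup G).subtype_injective] at h6
      have h7 := S.card_eq_multiplicity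
      rw [h6, Subgroup.card_bot] at h7
      have h8 := (Nat.Prime.dvd_iff_one_le_factorization Nat.prime_two
        (Nat.card_pos (α := fittingSubgroup G)).ne').1 h5
      have h9 : 2 ∣ 2 ^ (Nat.card (fittingSubgroup G)).factorization 2 :=
        dvd_pow_self 2 (by omega)
      rw [← h7] at h9
      omega
    apply hz1
    obtain ⟨j, hj⟩ := hB ⟨z, hzB⟩
    have h5 : z ^ 2 ^ j = 1 := by simpa using congrArg Subtype.val hj
    have h6 : orderOf z ∣ 2 ^ j := orderOf_dvd_of_pow_eq_one h5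
    have h7 : orderOf z ∣ Nat.card (fittingSubgroup G) := by
      rw [← Subgroup.orderOf_mk z h3]
      exact orderOf_dvd_natCard _
    have h8 : Nat.Coprime (2 ^ j) (Nat.card (fittingSubgroup G)) :=
      Nat.Coprime.pow_left j ((Nat.Prime.coprime_iff_not_dvd Nat.prime_two).2 h4)
    rw [← orderOf_eq_one_iff]
    exact Nat.eq_one_of_dvd_coprimes h8 h6 h7
  have hrf := Fact.mk hr
  have hr2 : r ≠ 2 := by
    rintro rfl
    apply hzr
    intro y hy
    rw [hO2, mem_bot] at hy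
    rw [hy]; exact Commute.one_right _
  have hOn : (pCore r G).Normal := inferInstance
  obtain ⟨Q, hQmin⟩ := (Set.toFinite {Q : Subgroup G | Q ≤ pCore r G ∧
    N ≤ normalizer (Q : Set G) ∧ ¬ ∀ y ∈ Q, Commute z y}).exists_minimal
      ⟨pCore r G, le_rfl, by rw [normalizer_eq_top]; exact le_top, hzr⟩
  obtain ⟨hQO, hNQ, hzQ'⟩ := hQmin.prop
  have hQr : IsPGroup r Q := (Fitting.isPGroup_pCore (G := G) r).to_le hQO
  have hmin : ∀ Q' < Q, N ≤ normalizer (Q' : Set G) → B ≤ centralizer (Q' : Set G) := by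
    intro Q' hQ' hNQ'
    apply hzQ Q' hNQ'
    by_contra h
    have h1 := hQmin.2 (y := Q') ⟨hQ'.le.trans hQO, hNQ', h⟩ hQ'.le
    exact hQ'.not_ge h1
  have hQs : Group.IsSolvable Q := isSolvable_pgroup hr hQr
  have hcBQ : (Nat.card B).Coprime (Nat.card Q) :=
    IsPGroup.coprime_card_of_ne 2 r hr2.symm _ _ hB hQr
  have hBQ : B ≤ normalizer (Q : Set G) := hBN.trans hNQ
  have hQne : Q ≠ ⊥ := by
    rintro rfl
    apply hzQ'
    intro y hy
    rw [mem_bot.1 hy]; exact Commute.one_right _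
  have hQB : ⁅Q, B⁆ = Q := by
    have hle : ⁅Q, B⁆ ≤ Q := le_normalizer_iff_commutator_le_left.mp hBQ
    by_contra hneq
    have hlt : ⁅Q, B⁆ < Q := lt_of_le_of_ne hle hneq
    have h1 := hmin _ hlt (Lib.H32PSolv.le_normalizer_commutator hNQ hNB)
    have h2 : ⁅⁅Q, B⁆, B⁆ = ⊥ := by
      rw [commutator_comm, commutator_eq_bot_iff_le_centralizer]; exact h1
    have h3 := commutator_eq_bot_of_commutator_commutator hBQ hcBQ (Or.inr hQs) h2
    apply hzQ'
    intro y hy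
    have h4 : ⁅y, z⁆ ∈ ⁅Q, B⁆ := commutator_mem_commutator hy hzB
    rw [h3, mem_bot, commutatorElement_eq_one_iff_commute] at h4
    exact h4.symm
  set D : Subgroup G := ⁅Q, Q⁆ with hD
  have hDQ : D ≤ Q := le_normalizer_iff_commutator_le_left.mp le_normalizer
  have hnt : Nontrivial Q := (nontrivial_iff_ne_bot Q).2 hQne
  have hDlt : D < Q := by
    have h1 : _root_.commutator Q < ⊤ := Group.IsSolvable.commutator_lt_top_of_nontrivial Q
    refine lt_of_le_of_ne hDQ ?_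
    intro h2
    apply h1.ne
    rw [hD, ← Q.map_subtype_commutator] at h2
    have h3 : (_root_.commutator Q).map Q.subtype = (⊤ : Subgroup Q).map Q.subtype := by
      rw [h2, ← MonoidHom.range_eq_map, range_subtype]
    exact Subgroup.map_injective Q.subtype_injective h3
  have hND : N ≤ normalizer (D : Set G) := Lib.H32PSolv.le_normalizer_commutator hNQ hNQ
  have hBD : B ≤ centralizer (D : Set G) := hmin D hDlt hND
  have hQD : Q ≤ centralizer (D : Set G) := le_centralizer_of_commutator_eq hQB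
    (Lib.H32PSolv.le_normalizer_commutator le_normalizer le_normalizer) hBD
  have hCB : Q ⊓ centralizer (B : Set G) ≤ D := mem_commutator_of_centralizer hBQ hQB hcBQ
  refine ⟨r, Q, hr, hr2, hQr, hNQ, hQB, fun z hz y hy =>
    (mem_centralizer_iff.1 (hQD hy) z hz).symm, ?_, hCB, hzQ', hmin⟩
  obtain ⟨h1, h2⟩ := ShultGross.frattini_map hQne hNQ
  intro x hx
  have h4 := hmin _ h1 h2
  have h5 : x ^ r ∈ (frattini Q).map Q.subtype :=
    ⟨⟨x, hx⟩ ^ r, HBBasic.pow_mem_frattini hQr ⟨x, hx⟩, rfl⟩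
  apply hCB
  refine ⟨h1.le h5, mem_centralizer_iff.2 ?_⟩
  intro b hb
  exact (mem_centralizer_iff.1 (h4 hb) _ h5).symm

end Grp

section Rep

variable {G : Type u} [Group G] [Finite G] {k : Type v} {W : Type w}
    [Field k] [IsAlgClosed k] [CharP k 2] [AddCommGroup W] [Module k W] [FiniteDimensional k W]

theorem kq_ne {r : ℕ} (hr : r.Prime) (hr2 : r ≠ 2) : (r : k) ≠ 0 := by
  intro h0
  rw [CharP.cast_eq_zero_iff k 2] at h0
  exact hr2 ((Nat.prime_dvd_prime_iff_eq Nat.prime_two hr).1 h0).symm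

/-- a weight on which the element `z` acts nontrivially -/
theorem exists_mu (H : G →* Module.End k W) (hinj : ∀ x, H x = 1 → x = 1) {N B Q : Subgroup G}
    (hBN : B ≤ N) {z : G} (hB : IsPGroup 2 B) (hzB : z ∈ B) {r : ℕ} (hr : r.Prime) (hr2 : r ≠ 2)
    (hQ : IsPGroup r Q) (hNQ : N ≤ normalizer (Q : Set G))
    (hDc : ∀ z ∈ ⁅Q, Q⁆, ∀ y ∈ Q, Commute y z) (hDne : ⁅Q, Q⁆ ≠ ⊥)
    (hzQ : ¬ ∀ y ∈ Q, Commute z y)
    (hmin : ∀ Q' < Q, N ≤ normalizer (Q' : Set G) → B ≤ centralizer (Q' : Set G)) :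
    ∃ (v : W) (μ : G → k), v ≠ 0 ∧ IsWt H ⁅Q, Q⁆ μ v ∧ (∃ d ∈ ⁅Q, Q⁆, μ d ≠ 1) ∧
      ¬ ∀ y ∈ Q, ∀ y' ∈ Q, μ ⁅⁅z, y⁆, y'⁆ = 1 := by
  have hkq : (r : k) ≠ 0 := kq_ne hr hr2
  set D : Subgroup G := ⁅Q, Q⁆ with hD
  have hDQ : D ≤ Q := le_normalizer_iff_commutator_le_left.mp le_normalizer
  have hcD : (Nat.card D : k) ≠ 0 := BryHeis.card_ne_zero' hkq hr (hQ.to_le hDQ)
  have hcomD : ∀ x ∈ Q, ∀ y ∈ Q, ⁅x, y⁆ ∈ D := fun x hx y hy => commutator_mem_commutator hx hy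
  have hpow : ∀ x ∈ D, x ^ Nat.card D = 1 := by
    intro x hx
    have h1 : (⟨x, hx⟩ : D) ^ Nat.card D = 1 := pow_card_eq_one'
    exact congrArg (Subtype.val : D → G) h1
  have hzNQ : z ∈ normalizer (Q : Set G) := hNQ (hBN hzB)
  have hzy : ∀ y ∈ Q, ⁅z, y⁆ ∈ Q := by
    intro y hy
    rw [commutatorElement_def]
    exact mul_mem ((mem_normalizer_iff.1 hzNQ y).1 hy) (inv_mem hy)
  have key : ∃ (v : W) (μ : G → k), v ≠ 0 ∧ IsWt H D μ v ∧
      ¬ ∀ y ∈ Q, ∀ y' ∈ Q, μ ⁅⁅z, y⁆, y'⁆ = 1 := by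
    by_contra hcon
    push Not at hcon
    have h1 : ∀ y ∈ Q, ∀ y' ∈ Q, ⁅⁅z, y⁆, y'⁆ = 1 := by
      intro y hy y' hy'
      apply hinj
      have hd : ⁅⁅z, y⁆, y'⁆ ∈ D := hcomD _ (hzy y hy) _ hy'
      ext w
      refine eq_on_of_weights H ⊤ D (fun _ _ _ _ => trivial) ?_ (Nat.card D) hcD hpow
        (H ⁅⁅z, y⁆, y'⁆) ?_ w trivial
      · intro x hx t ht u _
        rw [← Module.End.mul_apply, ← Module.End.mul_apply, ← map_mul, ← map_mul,
          (hDc t ht x (hDQ hx)).eq]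
      · intro v _ χ hv hχ
        rw [hχ _ hd, hcon v χ hv hχ y hy y' hy', one_smul]
    -- the centre of `Q`
    set ZQ : Subgroup G := Q ⊓ centralizer (Q : Set G) with hZQ
    have hZlt : ZQ < Q := by
      refine lt_of_le_of_ne inf_le_left ?_
      intro h2
      apply hDne
      rw [hD, commutator_eq_bot_iff_le_centralizer]
      rw [hZQ] at h2
      exact inf_eq_left.1 h2
    have hNZ : N ≤ normalizer (ZQ : Set G) := by
      rw [le_normalizer_iff]
      intro n hn x hx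
      refine ⟨(mem_normalizer_iff.1 (hNQ hn) x).1 hx.1, mem_centralizer_iff.2 ?_⟩
      intro y hy
      have h2 : n⁻¹ * y * n ∈ Q := conj_mem_of_normalizer (hNQ hn) hy
      have h3 := mem_centralizer_iff.1 hx.2 _ h2
      calc y * (n * x * n⁻¹) = n * ((n⁻¹ * y * n) * x) * n⁻¹ := by group
        _ = n * (x * (n⁻¹ * y * n)) * n⁻¹ := by rw [h3]
        _ = n * x * n⁻¹ * y := by group
    have hBZ := hmin ZQ hZlt hNZ
    have hzt : z ∈ triv Q ZQ := by
      refine ⟨hzNQ, hNZ (hBN hzB), fun x hx => ?_⟩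
      have h2 : z * x * z⁻¹ * x⁻¹ = ⁅z, x⁆ := (commutatorElement_def _ _).symm
      rw [h2]
      refine ⟨hzy x hx, mem_centralizer_iff.2 ?_⟩
      intro y hy
      exact (commutatorElement_eq_one_iff_mul_comm.1 (h1 x hx y hy)).symm
    have hzle : zpowers z ≤ triv Q ZQ := zpowers_le.2 hzt
    have hzQ' : zpowers z ≤ normalizer (Q : Set G) := zpowers_le.2 hzNQ
    have h2 : ⁅Q, zpowers z⁆ ≤ ZQ := by
      rw [commutator_comm, commutator_le]
      intro t ht x hx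
      exact (hzle ht).2.2 x hx
    have h3 : ⁅⁅Q, zpowers z⁆, zpowers z⁆ = ⊥ := by
      rw [eq_bot_iff]
      refine (commutator_mono h2 le_rfl).trans ?_
      rw [le_bot_iff, commutator_comm, commutator_eq_bot_iff_le_centralizer]
      exact (zpowers_le.2 hzB).trans hBZ
    have hrf := Fact.mk hr
    have h2f : Fact (Nat.Prime 2) := ⟨Nat.prime_two⟩
    have hc : (Nat.card (zpowers z)).Coprime (Nat.card Q) :=
      IsPGroup.coprime_card_of_ne 2 r hr2.symm _ _ (hB.to_le (zpowers_le.2 hzB)) hQ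
    have h4 := commutator_eq_bot_of_commutator_commutator hzQ' hc
      (Or.inr (isSolvable_pgroup hr hQ)) h3
    apply hzQ
    intro y hy
    have h5 : ⁅y, z⁆ ∈ ⁅Q, zpowers z⁆ := commutator_mem_commutator hy (mem_zpowers z)
    rw [h4, mem_bot, commutatorElement_eq_one_iff_commute] at h5
    exact h5.symm
  obtain ⟨v, μ, hv, hμ, hne⟩ := key
  refine ⟨v, μ, hv, hμ, ?_, hne⟩
  push Not at hne
  obtain ⟨y, hy, y', hy', h⟩ := hne
  exact ⟨_, hcomD _ (hzy y hy) _ hy', h⟩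

/-- `σ(x)` stabilizes the weights of the radical -/
theorem sigma_stab_R (H : G →* Module.End k W) {Q R : Subgroup G} {μ : G → k} {v₀ : W}
    (hDc : ∀ z ∈ ⁅Q, Q⁆, ∀ y ∈ Q, Commute y z) (hv₀ : v₀ ≠ 0) (hμ : IsWt H ⁅Q, Q⁆ μ v₀)
    (hR : ∀ x, x ∈ R ↔ x ∈ Q ∧ ∀ y ∈ Q, μ ⁅x, y⁆ = 1) {x : G} (hx : x ∈ normalizer (Q : Set G))
    {l : ℕ} (hxl : x ^ 2 ^ l = 1) (hnil : (H x - 1) ^ (2 ^ l - 1) = 0) {v : W} {χ : G → k}
    (hv : v ≠ 0) (hvμ : IsWt H ⁅Q, Q⁆ μ v) (hχ : IsWt H R χ v) :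
    x ^ 2 ^ (l - 1) ∈ stab R χ := by
  set D : Subgroup G := ⁅Q, Q⁆ with hD
  have hDQ : D ≤ Q := le_normalizer_iff_commutator_le_left.mp le_normalizer
  have hμ1 : μ 1 = 1 := isWt_one hμ hv₀
  have hxD : x ∈ normalizer (D : Set G) :=
    (Lib.H32PSolv.le_normalizer_commutator (zpowers_le.2 hx) (zpowers_le.2 hx)) (mem_zpowers x)
  have hnilv : ∀ v, ((H x - 1) ^ (2 ^ l - 1) : Module.End k W) v = 0 := fun v => by
    rw [hnil]; rfl
  obtain ⟨t, htl, hxt, hmin⟩ := exists_stab H hxD (b := l) (by rw [hxl]; exact one_mem _) hv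
    hvμ (hnilv _)
  obtain ⟨b, hbl⟩ : ∃ b, t + b = l := ⟨l - t, by omega⟩
  obtain ⟨-, -, hXR⟩ := SympSec.radical_props (X := zpowers (x ^ 2 ^ t)) hDQ hDc le_rfl hμ1
    (zpowers_le.2 (pow_mem hx _)) (zpowers_le.2 hxt) hR
  have hx₁R : x ^ 2 ^ t ∈ normalizer (R : Set G) := hXR (mem_zpowers _)
  have h1 := nil_stab H hxD hbl hxt hmin hvμ (hnilv _)
  have h2 := sigma_stab H hx₁R (b := b) (by
    rw [← pow_mul, ← pow_add, hbl, hxl]; exact one_mem _) hv hχ h1
  have h3 : (x ^ 2 ^ t) ^ 2 ^ (b - 1) = x ^ 2 ^ (l - 1) := by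
    rw [← pow_mul, ← pow_add]
    congr 2
    omega
  rwa [h3] at h2

end Rep

end Cfsg.Agent.Lib.BryFin
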