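import Cfsg.Agent.Lib.BryFin

/-!
Bryukhanova's theorem: the exponent drops on the relevant chief factors (helper59).
-/

set_option autoImplicit false

namespace Cfsg.Agent.Lib.BryFin

open Module Subgroup Cfsg Cfsg.Agent.Lib.WielandtFix Cfsg.Agent.Lib.SympFix Cfsg.Agent.Lib.WtGroup
  Cfsg.Agent.Lib.Weights Cfsg.Agent.Lib.CoprimeAction Cfsg.Agent.Lib.CoprimeAction2
  Cfsg.Agent.Lib.SubgroupTools Cfsg.Agent.Lib.Ward Cfsg.Agent.Lib.FpfPQ3 Cfsg.Agent.Lib.BryLoc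
  Cfsg.Agent.Lib.BryTL
open scoped commutatorElement

universe u v w

theorem isPGroup_zpowers {G : Type*} [Group G] {x : G} {n : ℕ} (hx : x ^ 2 ^ n = 1) :
    IsPGroup 2 (zpowers x) := by
  rintro ⟨y, hy⟩
  obtain ⟨i, rfl⟩ := mem_zpowers_iff.1 hy
  refine ⟨n, Subtype.ext ?_⟩
  rw [Subgroup.coe_pow]
  change (x ^ i) ^ 2 ^ n = 1
  rw [← zpow_natCast, ← zpow_mul, mul_comm, zpow_mul, zpow_natCast, hx, one_zpow]

section Pair

variable {G : Type u} [Group G] [Finite G] {k : Type v} {W : Type w}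
    [Field k] [IsAlgClosed k] [CharP k 2] [AddCommGroup W] [Module k W] [FiniteDimensional k W]
    {H : G →* Module.End k W} {q : ℕ} [hqf : Fact q.Prime] {Q R X : Subgroup G}
    {μ : G → k} {v₀ : W} {M : Type u} [AddCommGroup M] [Module (ZMod q) M] [Finite M]
    {ρ : Representation (ZMod q) X M} {π : Q → M} {e : M → M → k}

theorem exists_sy (L : Loc H q Q R X μ v₀ ρ π e) : ∃ f, Sy (X := X) (ρ : X →* _) f := by
  obtain ⟨f, hf0, hfe, hf1⟩ := MersLin1.exists_bilin (q := q) L.he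
  exact ⟨f, L.hq2, hf0, fun g x y => hfe _ _ _ _ (L.hinv g x y),
    fun x hx => L.hnd x fun y => hf1 x y (hx y)⟩

theorem pairStep (L : Loc H q Q R X μ v₀ ρ π e) {f : M →ₗ[ZMod q] M →ₗ[ZMod q] ZMod q}
    (S : Sy (X := X) (ρ : X →* _) f) {C : Subgroup G} (hCX : C ≤ X) (hC2 : IsPGroup 2 C)
    {g g' : G} (hg : g ∈ normalizer (Q : Set G)) (hg' : g' ∈ normalizer (Q : Set G))
    (hgC : g ∈ normalizer (C : Set G)) {l : ℕ} (hgl : g ^ 2 ^ l = 1) (hgl' : g' ^ 2 ^ l = 1)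
    (hnil : (H g - 1) ^ (2 ^ l - 1) = 0) (hnil' : (H g' - 1) ^ (2 ^ l - 1) = 0)
    (hpow : ∀ n : ℕ, (g ^ n)⁻¹ * g' ^ n ∈ C) (hτ : g ^ 2 ^ (l - 1) ∈ X)
    (hne : ∃ m, ρ ⟨_, hτ⟩ m ≠ m) :
    ((∀ c ∈ C, c * c = 1) → ∀ v,
      ρ ⟨(g ^ 2 ^ (l - 1))⁻¹ * g' ^ 2 ^ (l - 1), hCX (hpow _)⟩ v = v) ∧
    ((∀ c ∈ C, c ^ 4 = 1) → (∀ c ∈ C, ∀ d ∈ C, c * c * d = d * (c * c)) →
      ∀ (c : G) (hc : c ∈ C) (v : M),
        ρ ⟨(g ^ 2 ^ (l - 1))⁻¹ * g' ^ 2 ^ (l - 1), hCX (hpow _)⟩ (ρ ⟨c, hCX hc⟩ v) =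
          ρ ⟨c, hCX hc⟩ (ρ ⟨(g ^ 2 ^ (l - 1))⁻¹ * g' ^ 2 ^ (l - 1), hCX (hpow _)⟩ v)) := by
  obtain ⟨hτ', h⟩ := L.tl hg hgl hnil
  obtain ⟨b, hqb, hbl, hx, T⟩ := h hne
  have hb2 := T.two_le
  set x : X := ⟨g ^ 2 ^ (l - b), hx⟩ with hxdef
  set t : X := ⟨(g ^ 2 ^ (l - b))⁻¹ * g' ^ 2 ^ (l - b), hCX (hpow _)⟩ with htdef
  have hxt : ((x * t : X) : G) = g' ^ 2 ^ (l - b) := by
    rw [Subgroup.coe_mul]
    change g ^ 2 ^ (l - b) * ((g ^ 2 ^ (l - b))⁻¹ * g' ^ 2 ^ (l - b)) = _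
    rw [mul_inv_cancel_left]
  have hexp : 2 ^ (l - b) * 2 ^ (b - 1) = 2 ^ (l - 1) := by
    rw [← pow_add]; congr 1; omega
  have hθ : (x ^ 2 ^ (b - 1))⁻¹ * (x * t) ^ 2 ^ (b - 1) =
      ⟨(g ^ 2 ^ (l - 1))⁻¹ * g' ^ 2 ^ (l - 1), hCX (hpow _)⟩ := by
    apply Subtype.ext
    rw [Subgroup.coe_mul, Subgroup.coe_inv, Subgroup.coe_pow, Subgroup.coe_pow, hxt]
    change ((g ^ 2 ^ (l - b)) ^ 2 ^ (b - 1))⁻¹ * (g' ^ 2 ^ (l - b)) ^ 2 ^ (b - 1) = _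
    rw [← pow_mul, ← pow_mul, hexp]
  set C' : Subgroup X := C.subgroupOf X with hC'
  have ht : t ∈ C' := hpow _
  have hxC : x ∈ normalizer (C' : Set X) := by
    rw [mem_normalizer_iff]
    intro c
    exact mem_normalizer_iff.1 (pow_mem hgC (2 ^ (l - b))) c
  have hxb : x ^ 2 ^ b = 1 := by
    apply Subtype.ext
    rw [Subgroup.coe_pow]
    change (g ^ 2 ^ (l - b)) ^ 2 ^ b = 1
    rw [← pow_mul, ← pow_add]
    have : l - b + b = l := by omega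
    rw [this, hgl]
  have hP : IsPGroup 2 (C' ⊔ zpowers x : Subgroup X) :=
    IsPGroup.to_sup_of_normal_left' (hC2.comap_subtype) (isPGroup_zpowers hxb) (zpowers_le.2 hxC)
  have h' : TL (X := X) (ρ : X →* _) (x * t) b ∨ ∀ v, ρ ((x * t) ^ 2 ^ (b - 1)) v = v := by
    obtain ⟨hτ2, h2⟩ := L.tl hg' hgl' hnil'
    have hxt2 : (x * t) ^ 2 ^ (b - 1) = ⟨g' ^ 2 ^ (l - 1), hτ2⟩ := by
      apply Subtype.ext
      rw [Subgroup.coe_pow, hxt, ← pow_mul, hexp]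
    by_cases hne2 : ∃ m, ρ ⟨g' ^ 2 ^ (l - 1), hτ2⟩ m ≠ m
    · left
      obtain ⟨b', hqb', hbl', hx', T'⟩ := h2 hne2
      have hbb : b' = b := by
        rw [hqb] at hqb'
        exact (Nat.pow_right_injective le_rfl hqb').symm
      subst hbb
      have h3 : x * t = ⟨g' ^ 2 ^ (l - b'), hx'⟩ := Subtype.ext hxt
      rw [h3]
      exact T'
    · right
      push Not at hne2
      intro v
      rw [hxt2]
      exact hne2 v
  constructor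
  · intro hc v
    rw [← hθ]
    exact l3' S T ht hxC hP h' (fun c hc' v => by
      have h1 : c * c = 1 := Subtype.ext (hc c hc')
      rw [h1, map_one]; rfl) v
  · intro hc4 hcc c hc v
    rw [← hθ]
    refine l3 S T ht hxC hP h' (fun c hc' v => ?_) (fun c hc' d hd v => ?_) ⟨c, hCX hc⟩ hc v
    · have h1 : c ^ 4 = 1 := Subtype.ext (by rw [Subgroup.coe_pow]; exact hc4 c hc')
      rw [h1, map_one]; rfl
    · rw [← BryTL.ma, ← BryTL.ma]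
      congr 2
      apply Subtype.ext
      exact hcc c hc' d hd

end Pair

section Main

variable {G : Type u} [Group G] [Finite G] {k : Type v} {W : Type w}
    [Field k] [IsAlgClosed k] [CharP k 2] [AddCommGroup W] [Module k W] [FiniteDimensional k W]

omit [IsAlgClosed k] [FiniteDimensional k W] [Finite G] in
theorem exp_of_nil (H : G →* Module.End k W) (hinj : ∀ x, H x = 1 → x = 1) {l : ℕ} {g : G}
    (hnil : (H g - 1) ^ (2 ^ l - 1) = 0) : g ^ 2 ^ l = 1 := by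
  have h2f : Fact (Nat.Prime 2) := ⟨Nat.prime_two⟩
  apply hinj
  have h1 : (H g - 1) ^ 2 ^ l = 0 := by
    have h2 : 2 ^ l = 2 ^ l - 1 + 1 := by
      have : 0 < 2 ^ l := by positivity
      omega
    rw [h2, pow_succ, hnil, zero_mul]
  rw [HHLin.sub_one_pow (K := k) (p := 2), sub_eq_zero] at h1
  rw [map_pow, h1]

theorem sigma_mem (hsol : Group.IsSolvable G) (hO2 : pCore 2 G = ⊥) (H : G →* Module.End k W)
    (hinj : ∀ x, H x = 1 → x = 1) {l : ℕ}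
    (hnil : ∀ g : G, (∃ j, g ^ 2 ^ j = 1) → (H g - 1) ^ (2 ^ l - 1) = 0)
    {N C Z₁ : Subgroup G} (hC2 : IsPGroup 2 C) (hCN : C ≤ N) (hNC : N ≤ normalizer (C : Set G))
    (hmax : ∀ C₀ : Subgroup G, C₀ ≤ C → N ≤ normalizer (C₀ : Set G) → C₀ ≠ C → C₀ ≤ Z₁)
    (hstr : (∀ c ∈ C, c * c = 1) ∨ ((∀ c ∈ C, (∀ d ∈ C, c * d = d * c) → c ∈ Z₁) ∧
      (∀ c ∈ C, c ^ 4 = 1) ∧ ∀ c ∈ C, ∀ d ∈ C, c * c * d = d * (c * c)))
    {g y : G} (hg : g ∈ N) (hg2 : ∃ j, g ^ 2 ^ j = 1) (hy : y ∈ C) :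
    (g ^ 2 ^ (l - 1))⁻¹ * (y * g) ^ 2 ^ (l - 1) ∈ Z₁ := by
  classical
  by_contra hθ
  have h2f : Fact (Nat.Prime 2) := ⟨Nat.prime_two⟩
  have h2l : ∀ g : G, (∃ j, g ^ 2 ^ j = 1) → g ^ 2 ^ l = 1 := fun g hg =>
    exp_of_nil H hinj (hnil g hg)
  set g' : G := y * g with hg'
  have hg'N : g' ∈ N := mul_mem (hCN hy) hg
  have hg'2 : ∃ j, g' ^ 2 ^ j = 1 := by
    obtain ⟨j, hj⟩ := hg2
    have h1 : IsPGroup 2 (C ⊔ zpowers g : Subgroup G) :=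
      IsPGroup.to_sup_of_normal_left' hC2 (isPGroup_zpowers hj) (zpowers_le.2 (hNC hg))
    obtain ⟨i, hi⟩ := h1 ⟨g', mul_mem (mem_sup_left hy) (mem_sup_right (mem_zpowers g))⟩
    exact ⟨i, by simpa using congrArg Subtype.val hi⟩
  have hpow : ∀ n : ℕ, (g ^ n)⁻¹ * g' ^ n ∈ C := by
    intro n
    induction n with
    | zero => simp
    | succ n ih =>
      have h1 : (g ^ (n + 1))⁻¹ * g' ^ (n + 1) = g⁻¹ * ((g ^ n)⁻¹ * g' ^ n * y) * g := by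
        rw [pow_succ g, pow_succ g', hg']; group
      rw [h1]
      exact conj_mem_of_normalizer (hNC hg) (mul_mem ih hy)
  set θ : G := (g ^ 2 ^ (l - 1))⁻¹ * g' ^ 2 ^ (l - 1) with hθdef
  have hθC : θ ∈ C := hpow _
  -- the group generated by the `σ`
  set A : Subgroup G := closure {s | ∃ a ∈ N, (∃ j, a ^ 2 ^ j = 1) ∧ a ^ 2 ^ (l - 1) = s} with hA
  have hNA : N ≤ normalizer (A : Set G) := by
    rw [le_normalizer_iff]
    intro n hn s hs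
    have h1 : A ≤ A.comap (MulAut.conj n).toMonoidHom := by
      rw [hA, closure_le]
      rintro _ ⟨a, ha, ⟨j, hj⟩, rfl⟩
      change n * a ^ 2 ^ (l - 1) * n⁻¹ ∈ A
      rw [← conj_pow]
      exact subset_closure ⟨n * a * n⁻¹, mul_mem (mul_mem hn ha) (inv_mem hn),
        ⟨j, by rw [conj_pow, hj, mul_one, mul_inv_cancel]⟩, rfl⟩
    exact h1 hs
  have hθA : θ ∈ A := mul_mem (inv_mem (subset_closure ⟨g, hg, hg2, rfl⟩))
    (subset_closure ⟨g', hg'N, hg'2, rfl⟩)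
  have hinfnorm : ∀ K L : Subgroup G, N ≤ normalizer (K : Set G) → N ≤ normalizer (L : Set G) →
      N ≤ normalizer ((K ⊓ L : Subgroup G) : Set G) := by
    intro K L hK hL
    rw [le_normalizer_iff]
    intro n hn x hx
    exact ⟨(mem_normalizer_iff.1 (hK hn) x).1 hx.1, (mem_normalizer_iff.1 (hL hn) x).1 hx.2⟩
  have hcentnorm : ∀ K : Subgroup G, N ≤ normalizer (K : Set G) →
      N ≤ normalizer ((centralizer (K : Set G) : Subgroup G) : Set G) := by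
    intro K hK
    rw [le_normalizer_iff]
    intro n hn x hx
    refine mem_centralizer_iff.2 fun y hy => ?_
    have h2 : n⁻¹ * y * n ∈ K := conj_mem_of_normalizer (hK hn) hy
    have h3 := mem_centralizer_iff.1 hx _ h2
    calc y * (n * x * n⁻¹) = n * ((n⁻¹ * y * n) * x) * n⁻¹ := by group
      _ = n * (x * (n⁻¹ * y * n)) * n⁻¹ := by rw [h3]
      _ = n * x * n⁻¹ * y := by group
  have hfull : ∀ K : Subgroup G, N ≤ normalizer (K : Set G) → θ ∈ K → C ≤ K := by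
    intro K hK hθK
    have h1 : C ⊓ K = C := by
      by_contra hne
      exact hθ (hmax (C ⊓ K) inf_le_left (hinfnorm C K hNC hK) hne ⟨hθC, hθK⟩)
    exact inf_eq_left.1 h1
  have hCA : C ≤ A := hfull A hNA hθA
  have hAcent : ∀ (r : ℕ) (D : Subgroup G), r.Prime → r ≠ 2 → IsPGroup r D →
      N ≤ normalizer (D : Set G) → (∀ x ∈ D, ∀ y ∈ D, Commute x y) →
      A ≤ centralizer (D : Set G) := by
    intro r D hr hr2 hD hND hab
    rw [hA, closure_le]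
    rintro _ ⟨a, ha, ha2, rfl⟩
    refine mem_centralizer_iff.2 fun d hd => ?_
    exact ((sigma_centralizes H (fun x _ => hinj x) hab
      (BryHeis.card_ne_zero' (kq_ne hr hr2) hr hD) (hND ha) (h2l a ha2) (hnil a ha2) d hd).eq).symm
  -- the witnesses
  obtain ⟨B, z, hBC, hNB, hzB, hz1, hzQ, hzcase⟩ : ∃ (B : Subgroup G) (z : G), B ≤ C ∧
      N ≤ normalizer (B : Set G) ∧ z ∈ B ∧ z ≠ 1 ∧
      (∀ Q : Subgroup G, N ≤ normalizer (Q : Set G) → (∀ y ∈ Q, Commute z y) →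
        B ≤ centralizer (Q : Set G)) ∧
      (((∀ c ∈ C, c * c = 1) ∧ z = θ) ∨ ((∀ c ∈ C, c ^ 4 = 1) ∧
        (∀ c ∈ C, ∀ d ∈ C, c * c * d = d * (c * c)) ∧ ∃ c ∈ C, z = ⁅θ, c⁆)) := by
    rcases hstr with h1 | ⟨h1, h2, h3⟩
    · refine ⟨C, θ, le_rfl, hNC, hθC, ?_, ?_, Or.inl ⟨h1, rfl⟩⟩
      · intro h
        apply hθ
        rw [h]; exact one_mem _
      · intro Q hNQ hQ
        exact hfull _ (hcentnorm Q hNQ) (mem_centralizer_iff.2 fun y hy => (hQ y hy).eq.symm)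
    · obtain ⟨c, hc, hne⟩ : ∃ c ∈ C, θ * c ≠ c * θ := by
        by_contra hcon
        push Not at hcon
        exact hθ (h1 θ hθC hcon)
      set z : G := ⁅θ, c⁆ with hz
      have hzC : z ∈ C := by
        rw [hz, commutatorElement_def]
        exact mul_mem (mul_mem (mul_mem hθC hc) (inv_mem hθC)) (inv_mem hc)
      set B : Subgroup G := closure {s | ∃ n ∈ N, n * z * n⁻¹ = s} with hB
      have hNB : N ≤ normalizer (B : Set G) := by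
        rw [le_normalizer_iff]
        intro n hn s hs
        have h4 : B ≤ B.comap (MulAut.conj n).toMonoidHom := by
          rw [hB, closure_le]
          rintro _ ⟨m, hm, rfl⟩
          change n * (m * z * m⁻¹) * n⁻¹ ∈ B
          refine subset_closure ⟨n * m, mul_mem hn hm, by group⟩
        exact h4 hs
      refine ⟨B, z, ?_, hNB, subset_closure ⟨1, one_mem _, by group⟩, ?_, ?_,
        Or.inr ⟨h2, h3, c, hc, rfl⟩⟩
      · rw [hB, closure_le]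
        rintro _ ⟨m, hm, rfl⟩
        exact (mem_normalizer_iff.1 (hNC hm) z).1 hzC
      · intro h
        exact hne (commutatorElement_eq_one_iff_mul_comm.1 h)
      · intro Q hNQ hQ
        rw [hB, closure_le]
        rintro _ ⟨m, hm, rfl⟩
        have h4 : z ∈ centralizer (Q : Set G) :=
          mem_centralizer_iff.2 fun y hy => (hQ y hy).eq.symm
        exact (mem_normalizer_iff.1 (hcentnorm Q hNQ hm) z).1 h4
  have hBN : B ≤ N := hBC.trans hCN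
  have hB2 : IsPGroup 2 B := hC2.to_le hBC
  obtain ⟨r, Q, hr, hr2, hQr, hNQ, hQB, hDc, hQq, hCB, hzQ', hmin⟩ :=
    exists_Q hsol hO2 hB2 hNB hBN hzB hz1 hzQ
  have hrf := Fact.mk hr
  have hDQ : ⁅Q, Q⁆ ≤ Q := le_normalizer_iff_commutator_le_left.mp le_normalizer
  by_cases hDne : ⁅Q, Q⁆ = ⊥
  · apply hzQ'
    have hab : ∀ x ∈ Q, ∀ y ∈ Q, Commute x y := by
      intro x hx y hy
      have h1 : ⁅x, y⁆ ∈ ⁅Q, Q⁆ := commutator_mem_commutator hx hy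
      rw [hDne, mem_bot] at h1
      exact commutatorElement_eq_one_iff_commute.1 h1
    intro y hy
    exact (mem_centralizer_iff.1 (hAcent r Q hr hr2 hQr hNQ hab (hCA (hBC hzB))) y hy).symm
  obtain ⟨v₀, μ, hv₀, hμ, hμne, hzμ⟩ := exists_mu H hinj hBN hB2 hzB hr hr2 hQr hNQ hDc hDne
    hzQ' hmin
  have hμ1 : μ 1 = 1 := isWt_one hμ hv₀
  obtain ⟨R, hR⟩ := SympSec.exists_radical (Q := Q) (Z := ⁅Q, Q⁆) hDc le_rfl hμ1
    (fun x hx y hy => isWt_mul hμ hv₀ hx hy)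
  have hND : N ≤ normalizer ((⁅Q, Q⁆ : Subgroup G) : Set G) :=
    Lib.H32PSolv.le_normalizer_commutator hNQ hNQ
  have hAD : A ≤ centralizer ((⁅Q, Q⁆ : Subgroup G) : Set G) :=
    hAcent r _ hr hr2 (hQr.to_le hDQ) hND (fun x hx y hy => (hDc y hy x (hDQ hx)))
  obtain ⟨X, M, i1, i2, i3, ρ, π, e, L⟩ := exists_loc (B := C) H hr2 hQr hDc hQq hv₀ hμ hμne
    (hCN.trans hNQ) (by
      intro t ht
      have hc := hAD (hCA ht)
      refine ⟨(centralizer_le_normalizer _) hc, fun x hx => ?_⟩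
      have h1 := mem_centralizer_iff.1 hc x hx
      rw [mul_assoc, h1, inv_mul_cancel_left])
    (IsPGroup.coprime_card_of_ne 2 r hr2.symm _ _ hC2 hQr)
    (by
      refine le_trans (inf_le_inf_left Q ?_) hCB
      exact centralizer_le hBC) hR (by
      intro v χ hv hvμ hχ
      refine hCA.trans ?_
      rw [hA, closure_le]
      rintro _ ⟨a, ha, ha2, rfl⟩
      exact sigma_stab_R H hDc hv₀ hμ hR (hNQ ha) (h2l a ha2) (hnil a ha2) hv hvμ hχ)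
  obtain ⟨f, S⟩ := exists_sy L
  have hCX : C ≤ X := by
    intro c hc
    have hc' := hAD (hCA hc)
    refine (L.hX c).2 ⟨hNQ (hCN hc), (centralizer_le_normalizer _) hc', fun x hx => ?_⟩
    have h1 := mem_centralizer_iff.1 hc' x hx
    rw [mul_assoc, h1, inv_mul_cancel_left]
  have hzX : z ∈ X := hCX (hBC hzB)
  -- `z` acts nontrivially
  have hzM : ¬ ∀ v, ρ ⟨z, hzX⟩ v = v := by
    intro hcon
    apply hzμ
    intro y hy y' hy'
    have hn : z * y * z⁻¹ ∈ Q := (mem_normalizer_iff.1 (hNQ (hBN hzB)) y).1 hy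
    have hπ1 : π 1 = 0 := (L.hker 1).2 (one_mem _)
    have hπinv : ∀ x, π x⁻¹ = -π x := by
      intro x
      have h1 := L.hadd x x⁻¹
      rw [mul_inv_cancel, hπ1] at h1
      exact (neg_eq_of_add_eq_zero_right h1.symm).symm
    have h1 := L.hρ ⟨z, hzX⟩ ⟨y, hy⟩ ⟨z * y * z⁻¹, hn⟩ rfl
    rw [hcon] at h1
    have h2 : π (⟨z * y * z⁻¹, hn⟩ * ⟨y, hy⟩⁻¹) = 0 := by
      rw [L.hadd, hπinv, h1, add_neg_cancel]
    have h3 : ⁅z, y⁆ ∈ R := (L.hker _).1 h2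
    exact ((hR _).1 h3).2 y' hy'
  have hθX : θ ∈ X := hCX hθC
  have hnilg := hnil g hg2
  have hnilg' := hnil g' hg'2
  have hgl := h2l g hg2
  have hgl' := h2l g' hg'2
  obtain ⟨hτ, -⟩ := L.tl (hNQ hg) hgl hnilg
  obtain ⟨hτ', -⟩ := L.tl (hNQ hg'N) hgl' hnilg'
  have hconcl : ((∀ c ∈ C, c * c = 1) → ∀ v, ρ ⟨θ, hθX⟩ v = v) ∧
      ((∀ c ∈ C, c ^ 4 = 1) → (∀ c ∈ C, ∀ d ∈ C, c * c * d = d * (c * c)) →
      ∀ (c : G) (hc : c ∈ C) (v : M), ρ ⟨θ, hθX⟩ (ρ ⟨c, hCX hc⟩ v) =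
          ρ ⟨c, hCX hc⟩ (ρ ⟨θ, hθX⟩ v)) := by
    by_cases h1 : ∃ m, ρ ⟨_, hτ⟩ m ≠ m
    · exact pairStep L S hCX hC2 (hNQ hg) (hNQ hg'N) (hNC hg) hgl hgl' hnilg hnilg' hpow hτ h1
    · by_cases h2 : ∃ m, ρ ⟨_, hτ'⟩ m ≠ m
      · have hpow' : ∀ n : ℕ, (g' ^ n)⁻¹ * g ^ n ∈ C := by
          intro n
          have h3 : (g' ^ n)⁻¹ * g ^ n = ((g ^ n)⁻¹ * g' ^ n)⁻¹ := by group
          rw [h3]
          exact inv_mem (hpow n)
        obtain ⟨h3, h4⟩ := pairStep L S hCX hC2 (hNQ hg'N) (hNQ hg) (hNC hg'N) hgl' hgl hnilg'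
          hnilg hpow' hτ' h2
        have h5 : (⟨θ, hθX⟩ : X) =
            (⟨(g' ^ 2 ^ (l - 1))⁻¹ * g ^ 2 ^ (l - 1), hCX (hpow' _)⟩ : X)⁻¹ := by
          apply Subtype.ext
          rw [Subgroup.coe_inv]
          change (g ^ 2 ^ (l - 1))⁻¹ * g' ^ 2 ^ (l - 1) = ((g' ^ 2 ^ (l - 1))⁻¹ * g ^ 2 ^ (l - 1))⁻¹
          group
        rw [h5]
        refine ⟨fun hc v => ?_, fun hc hcc c hc' v => ?_⟩
        · have h6 := h3 hc v
          conv_lhs => rw [← h6]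
          exact BryTL.ia ρ _ v
        · apply BryTL.inj ρ ⟨(g' ^ 2 ^ (l - 1))⁻¹ * g ^ 2 ^ (l - 1), hCX (hpow' _)⟩
          rw [BryTL.ai, h4 hc hcc c hc', BryTL.ai]
      · push Not at h1 h2
        have h3 : ∀ v, ρ ⟨θ, hθX⟩ v = v := by
          intro v
          have h4 : (⟨θ, hθX⟩ : X) = (⟨_, hτ⟩ : X)⁻¹ * ⟨_, hτ'⟩ := rfl
          rw [h4, BryTL.ma, h2]
          conv_lhs => rw [← h1 v]
          exact BryTL.ia ρ _ v
        exact ⟨fun _ => h3, fun _ _ c hc v => by rw [h3, h3]⟩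
  rcases hzcase with ⟨hc, rfl⟩ | ⟨hc4, hcc, c, hc, rfl⟩
  · exact hzM (hconcl.1 hc)
  · apply hzM
    intro v
    have h4 : (⟨⁅θ, c⁆, hzX⟩ : X) = ⟨θ, hθX⟩ * ⟨c, hCX hc⟩ * (⟨θ, hθX⟩ : X)⁻¹ *
        (⟨c, hCX hc⟩ : X)⁻¹ := rfl
    rw [h4, BryTL.ma, BryTL.ma, BryTL.ma, hconcl.2 hc4 hcc c hc, BryTL.ai, BryTL.ai]

end Main

end Cfsg.Agent.Lib.BryFin
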