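import Mathlib
import Cfsg.Agent.Lib.HHLin
import Cfsg.Agent.Lib.ModRep
import Cfsg.Agent.Lib.BG02d

/-! The critical case of the Hall-Higman theorem (helper63). -/

set_option autoImplicit false

namespace Cfsg.Agent.Lib.HHCrit

open Module Cfsg.Agent.Lib.ModRep Cfsg.Agent.Lib.HHLin

section Inversion

variable {K : Type*} [Field K] [IsAlgClosed K] {V : Type*} [AddCommGroup V] [Module K V] [FiniteDimensional K V]
variable {Q : Type*} [Group Q] [Fintype Q] {ρ : Q →* Module.End K V}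

theorem avg_scalar (hirr : Irr ρ) (T : Module.End K V) :
    (finrank K V : K) • ∑ g : Q, ρ g * T * ρ g⁻¹ = ((Fintype.card Q : K) * LinearMap.trace K V T) • 1 := by
  have h1 : ∀ h : Q, (∑ g : Q, ρ g * T * ρ g⁻¹) * ρ h = ρ h * ∑ g : Q, ρ g * T * ρ g⁻¹ := by
    intro h
    rw [Finset.sum_mul, Finset.mul_sum]
    refine Fintype.sum_equiv (Equiv.mulLeft h⁻¹) _ _ (fun g => ?_)
    rw [Equiv.coe_mulLeft]
    calc ρ g * T * ρ g⁻¹ * ρ h = ρ g * T * ρ (g⁻¹ * h) := by rw [map_mul ρ g⁻¹ h]; simp only [mul_assoc]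
      _ = ρ (h * (h⁻¹ * g)) * T * ρ ((h⁻¹ * g)⁻¹) := by
          congr 2
          · congr 1; group
          · group
      _ = ρ h * (ρ (h⁻¹ * g) * T * ρ ((h⁻¹ * g)⁻¹)) := by rw [map_mul ρ h]; simp only [mul_assoc]
  obtain ⟨e, he⟩ := schur hirr _ h1
  have h2 : LinearMap.trace K V (∑ g : Q, ρ g * T * ρ g⁻¹) = (Fintype.card Q : K) * LinearMap.trace K V T := by
    rw [map_sum]
    have h3 : ∀ g : Q, LinearMap.trace K V (ρ g * T * ρ g⁻¹) = LinearMap.trace K V T := by
      intro g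
      rw [LinearMap.trace_mul_comm, ← mul_assoc, ← map_mul, inv_mul_cancel, map_one, one_mul]
    rw [Finset.sum_congr rfl (fun g _ => h3 g), Finset.sum_const, Finset.card_univ, nsmul_eq_mul]
  rw [he, map_smul, LinearMap.trace_one, smul_eq_mul] at h2
  rw [he, smul_smul, ← h2, mul_comm]

theorem finrank_ne_zero (hirr : Irr ρ) (hQ : (Fintype.card Q : K) ≠ 0) : (finrank K V : K) ≠ 0 := by
  have hnt := hirr.nt
  intro h0
  obtain ⟨v, hv⟩ := exists_ne (0 : V)
  have h1 : ¬ ∀ φ : Module.Dual K V, φ v = 0 := by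
    rw [Module.forall_dual_apply_eq_zero_iff K]
    exact hv
  push Not at h1
  obtain ⟨φ, hφ⟩ := h1
  have h2 := avg_scalar hirr (φ.smulRight v)
  rw [LinearMap.trace_smulRight, h0, zero_smul] at h2
  have h3 := LinearMap.congr_fun h2.symm v
  rw [LinearMap.smul_apply, Module.End.one_apply, LinearMap.zero_apply] at h3
  rcases smul_eq_zero.mp h3 with h4 | h4
  · exact (mul_ne_zero hQ hφ) h4
  · exact hv h4

theorem inversion (hirr : Irr ρ) (T : Module.End K V) :
    (finrank K V : K) • ∑ g : Q, (LinearMap.trace K V (T * ρ g⁻¹)) • ρ g = (Fintype.card Q : K) • T := by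
  classical
  -- rank one case
  have h1 : ∀ (φ : Module.Dual K V) (v : V),
      (finrank K V : K) • ∑ g : Q, (LinearMap.trace K V ((φ.smulRight v) * ρ g⁻¹)) • ρ g =
        (Fintype.card Q : K) • (φ.smulRight v) := by
    intro φ v
    apply LinearMap.ext
    intro w
    have h2 := LinearMap.congr_fun (avg_scalar hirr (φ.smulRight w)) v
    rw [LinearMap.trace_smulRight, LinearMap.smul_apply, LinearMap.sum_apply, LinearMap.smul_apply,
      Module.End.one_apply] at h2
    rw [LinearMap.smul_apply, LinearMap.sum_apply, LinearMap.smul_apply, LinearMap.smulRight_apply, smul_smul,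
      ← h2]
    congr 1
    apply Finset.sum_congr rfl
    intro g _
    have h3 : (φ.smulRight v : Module.End K V) * ρ g⁻¹ = (φ ∘ₗ ρ g⁻¹).smulRight v := by
      apply LinearMap.ext; intro u; rfl
    rw [h3, LinearMap.trace_smulRight, LinearMap.smul_apply, LinearMap.comp_apply, Module.End.mul_apply,
      Module.End.mul_apply, LinearMap.smulRight_apply, map_smul]
  -- general case
  let b := Module.finBasis K V
  have hT : T = ∑ i, (b.coord i).smulRight (T (b i)) := by
    apply LinearMap.ext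
    intro u
    rw [LinearMap.sum_apply]
    conv_lhs => rw [← b.sum_repr u, map_sum]
    apply Finset.sum_congr rfl
    intro i _
    rw [map_smul, LinearMap.smulRight_apply, b.coord_apply]
  rw [hT]
  simp only [Finset.sum_mul, map_sum, Finset.sum_smul]
  rw [Finset.sum_comm, Finset.smul_sum, Finset.smul_sum]
  exact Finset.sum_congr rfl (fun i _ => h1 _ _)

end Inversion

theorem perm_apply_inv {Ω : Type*} (τ : Equiv.Perm Ω) (a : Ω) : τ (τ⁻¹ a) = a := τ.apply_symm_apply a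

theorem perm_inv_apply {Ω : Type*} (τ : Equiv.Perm Ω) (a : Ω) : τ⁻¹ (τ a) = a := τ.symm_apply_apply a

/-- A weight function for the regular cycles of a permutation. -/
theorem exists_weight {K : Type*} [Field K] {Ω : Type*} (σ : Equiv.Perm Ω) (m : ℕ) (hm : 0 < m) (hσ : σ ^ m = 1) :
    ∃ w : Ω → K, ∀ g, (∀ i, 0 < i → i < m → (σ ^ i) g ≠ g) → ∑ i ∈ Finset.range m, w ((σ ^ i)⁻¹ g) = 1 := by
  classical
  let s := Equiv.Perm.SameCycle.setoid σ
  let rep : Ω → Ω := fun g => (Quotient.mk s g).out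
  refine ⟨fun g => if rep g = g then 1 else 0, fun g hg => ?_⟩
  have hrep : ∀ (i : ℕ), rep ((σ ^ i)⁻¹ g) = rep g := by
    intro i
    change (Quotient.mk s ((σ ^ i)⁻¹ g)).out = (Quotient.mk s g).out
    congr 1
    apply Quotient.sound
    change σ.SameCycle ((σ ^ i)⁻¹ g) g
    exact ⟨(i : ℤ), by rw [zpow_natCast, perm_apply_inv]⟩
  have hsc : σ.SameCycle g (rep g) := by
    have h1 : s (rep g) g := Quotient.mk_out (s := s) g
    exact (show σ.SameCycle (rep g) g from h1).symm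
  obtain ⟨j, hj⟩ := hsc
  -- i₀ = -j mod m
  have hm' : (m : ℤ) ≠ 0 := by omega
  set i₀ := ((-j) % (m : ℤ)).toNat with hi₀
  have hi₀' : (i₀ : ℤ) = (-j) % (m : ℤ) := Int.toNat_of_nonneg (Int.emod_nonneg _ hm')
  have hi₀m : i₀ < m := by
    have := Int.emod_lt_of_pos (-j) (show (0 : ℤ) < m by omega)
    omega
  have hσz : σ ^ (i₀ : ℤ) = σ ^ (-j) := by
    rw [hi₀']
    have h1 : (-j) % (m : ℤ) = -j - m * ((-j) / m) := by
      have := Int.emod_add_mul_ediv (-j) m
      omega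
    rw [h1, zpow_sub, zpow_mul, zpow_natCast, hσ, one_zpow, inv_one, mul_one]
  have hi₀g : (σ ^ i₀)⁻¹ g = rep g := by
    rw [← zpow_natCast, hσz, zpow_neg, inv_inv, hj]
  rw [Finset.sum_eq_single i₀]
  · change (if rep ((σ ^ i₀)⁻¹ g) = (σ ^ i₀)⁻¹ g then (1 : K) else 0) = 1
    rw [if_pos]
    rw [hrep, hi₀g]
  · intro i hi hne
    rw [Finset.mem_range] at hi
    change (if rep ((σ ^ i)⁻¹ g) = (σ ^ i)⁻¹ g then (1 : K) else 0) = 0
    rw [if_neg]
    intro h
    rw [hrep, ← hi₀g] at h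
    -- (σ^i₀)⁻¹ g = (σ^i)⁻¹ g
    rcases lt_or_gt_of_ne hne with hlt | hlt
    · apply hg (i₀ - i) (by omega) (by omega)
      have h2 : σ ^ i₀ = σ ^ (i₀ - i) * σ ^ i := by rw [← pow_add]; congr 1; omega
      have h3 : (σ ^ i₀) ((σ ^ i)⁻¹ g) = g := by rw [← h, perm_apply_inv]
      rw [h2, Equiv.Perm.mul_apply, perm_apply_inv] at h3
      exact h3
    · apply hg (i - i₀) (by omega) (by omega)
      have h2 : σ ^ i = σ ^ (i - i₀) * σ ^ i₀ := by rw [← pow_add]; congr 1; omega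
      have h3 : (σ ^ i) ((σ ^ i₀)⁻¹ g) = g := by rw [h, perm_apply_inv]
      rw [h2, Equiv.Perm.mul_apply, perm_apply_inv] at h3
      exact h3
  · intro h
    exact absurd (Finset.mem_range.mpr hi₀m) h

section Decomp

variable {K : Type*} [Field K] [IsAlgClosed K] {V : Type*} [AddCommGroup V] [Module K V] [FiniteDimensional K V]
variable {G : Type*} [Group G]

theorem exists_decomp (Q : Subgroup G) [Finite Q] (ρ : G →* Module.End K V) (hirr : Irr (ρ.comp Q.subtype))
    (hQ : (Nat.card Q : K) ≠ 0) (x : G) (hx : x ∈ Subgroup.normalizer (Q : Set G)) (m : ℕ) (hm : 0 < m)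
    (hxm : x ^ m = 1)
    (hreg : ∀ g ∈ Q, ∀ i, 0 < i → i < m → x ^ i * g * (x ^ i)⁻¹ = g → ∃ c : K, ρ g = c • 1)
    (T : Module.End K V) (hT : T * ρ x = ρ x * T) :
    ∃ (c : K) (S : Module.End K V), T = c • 1 + ∑ i ∈ Finset.range m, (ρ x) ^ i * S * (ρ x⁻¹) ^ i := by
  classical
  have : Fintype Q := Fintype.ofFinite Q
  have hQ' : (Fintype.card Q : K) ≠ 0 := by rwa [← Nat.card_eq_fintype_card]
  have hD := finrank_ne_zero hirr hQ'
  -- conjugation by x
  have hconj : ∀ g : Q, x * g * x⁻¹ ∈ Q := fun g => (Subgroup.mem_normalizer_iff.mp hx g).mp g.2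
  have hconj' : ∀ g : Q, x⁻¹ * g * x ∈ Q := by
    intro g
    have := (Subgroup.mem_normalizer_iff.mp (Subgroup.inv_mem _ hx) g).mp g.2
    rwa [inv_inv] at this
  let σ : Equiv.Perm Q :=
    { toFun := fun g => ⟨x * g * x⁻¹, hconj g⟩
      invFun := fun g => ⟨x⁻¹ * g * x, hconj' g⟩
      left_inv := by intro g; apply Subtype.ext; simp only; group
      right_inv := by intro g; apply Subtype.ext; simp only; group }
  have hσ : ∀ (i : ℕ) (g : Q), (((σ ^ i) g : Q) : G) = x ^ i * g * (x ^ i)⁻¹ := by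
    intro i
    induction i with
    | zero => intro g; simp
    | succ i ih =>
      intro g
      rw [pow_succ', Equiv.Perm.mul_apply]
      change x * ((σ ^ i) g : G) * x⁻¹ = _
      rw [ih, pow_succ' x]
      group
  have hσm : σ ^ m = 1 := by
    apply Equiv.ext
    intro g
    apply Subtype.ext
    rw [hσ, hxm, one_mul, inv_one, mul_one, Equiv.Perm.one_apply]
  obtain ⟨w, hw⟩ := exists_weight (K := K) σ m hm hσm
  -- coefficients
  let k : K := (finrank K V : K) * (Fintype.card Q : K)⁻¹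
  let t : Q → K := fun g => k * LinearMap.trace K V (T * ρ (g : G)⁻¹)
  have hTt : T = ∑ g : Q, t g • ρ (g : G) := by
    have h1 := inversion hirr T
    have h2 : T = (Fintype.card Q : K)⁻¹ • ((Fintype.card Q : K) • T) := by
      rw [smul_smul, inv_mul_cancel₀ hQ', one_smul]
    rw [h2, ← h1, smul_smul, Finset.smul_sum]
    apply Finset.sum_congr rfl
    intro g _
    rw [smul_smul]
    change ((Fintype.card Q : K)⁻¹ * (finrank K V : K) * LinearMap.trace K V (T * ρ ((g⁻¹ : Q) : G))) • ρ (g : G) = _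
    congr 1
    change _ = (finrank K V : K) * (Fintype.card Q : K)⁻¹ * LinearMap.trace K V (T * ρ (g : G)⁻¹)
    rw [mul_comm ((Fintype.card Q : K)⁻¹)]
    rfl
  have hρx : ρ x * ρ x⁻¹ = 1 := by rw [← map_mul, mul_inv_cancel, map_one]
  have hρx' : ρ x⁻¹ * ρ x = 1 := by rw [← map_mul, inv_mul_cancel, map_one]
  have htσ : ∀ g : Q, t (σ g) = t g := by
    intro g
    change k * _ = k * _
    congr 1
    have h1 : ((σ g : Q) : G)⁻¹ = x * (g : G)⁻¹ * x⁻¹ := by
      change (x * g * x⁻¹)⁻¹ = _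
      group
    rw [h1, map_mul ρ, map_mul ρ, ← mul_assoc, ← mul_assoc, hT, mul_assoc, mul_assoc, LinearMap.trace_mul_comm]
    congr 1
    calc T * (ρ (g : G)⁻¹ * ρ x⁻¹) * ρ x = T * ρ (g : G)⁻¹ * (ρ x⁻¹ * ρ x) := by simp only [mul_assoc]
      _ = _ := by rw [hρx', mul_one]
  have htσi : ∀ (i : ℕ) (g : Q), t ((σ ^ i) g) = t g := by
    intro i
    induction i with
    | zero => intro g; rfl
    | succ i ih =>
      intro g
      rw [pow_succ', Equiv.Perm.mul_apply, htσ, ih]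
  -- non-regular elements
  let F : Q → Prop := fun g => ∃ i, 0 < i ∧ i < m ∧ (σ ^ i) g = g
  have hFσ : ∀ (j : ℕ) (g : Q), F ((σ ^ j) g) ↔ F g := by
    intro j g
    constructor
    · rintro ⟨i, h1, h2, h3⟩
      refine ⟨i, h1, h2, ?_⟩
      rw [← Equiv.Perm.mul_apply, ← pow_add, add_comm, pow_add, Equiv.Perm.mul_apply] at h3
      exact (σ ^ j).injective h3
    · rintro ⟨i, h1, h2, h3⟩
      refine ⟨i, h1, h2, ?_⟩
      rw [← Equiv.Perm.mul_apply, ← pow_add, add_comm, pow_add, Equiv.Perm.mul_apply, h3]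
  have hFs : ∀ g : Q, F g → ∃ c : K, ρ (g : G) = c • 1 := by
    rintro g ⟨i, h1, h2, h3⟩
    apply hreg g g.2 i h1 h2
    rw [← hσ, h3]
  choose! c hc using hFs
  refine ⟨∑ g : Q, if F g then t g * c g else 0, ∑ g : Q, (w g * (if F g then 0 else t g)) • ρ (g : G), ?_⟩
  have hNS : ∑ i ∈ Finset.range m, (ρ x) ^ i * (∑ g : Q, (w g * (if F g then 0 else t g)) • ρ (g : G)) * (ρ x⁻¹) ^ i =
      ∑ g : Q, (if F g then 0 else t g) • ρ (g : G) := by
    have h1 : ∀ i ∈ Finset.range m,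
        (ρ x) ^ i * (∑ g : Q, (w g * (if F g then 0 else t g)) • ρ (g : G)) * (ρ x⁻¹) ^ i =
          ∑ g : Q, (w ((σ ^ i)⁻¹ g) * (if F g then 0 else t g)) • ρ (g : G) := by
      intro i _
      rw [Finset.mul_sum, Finset.sum_mul]
      refine Fintype.sum_equiv (σ ^ i) _ _ (fun g => ?_)
      rw [perm_inv_apply, htσi]
      simp only [hFσ]
      rw [mul_smul_comm, smul_mul_assoc, hσ, ← map_pow, ← map_pow, ← map_mul, ← map_mul, inv_pow]
    rw [Finset.sum_congr rfl h1, Finset.sum_comm]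
    apply Finset.sum_congr rfl
    intro g _
    rw [← Finset.sum_smul, ← Finset.sum_mul]
    by_cases hF : F g
    · rw [if_pos hF, mul_zero]
    · rw [hw g (fun i h1 h2 h3 => hF ⟨i, h1, h2, h3⟩), one_mul]
  rw [hNS, Finset.sum_smul, ← Finset.sum_add_distrib]
  conv_lhs => rw [hTt]
  apply Finset.sum_congr rfl
  intro g _
  by_cases hF : F g
  · rw [if_pos hF, if_pos hF, zero_smul, add_zero, hc g hF, smul_smul]
  · rw [if_neg hF, if_neg hF, zero_smul, zero_add]

/-- The critical case. -/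
theorem crit {p : ℕ} [hp : Fact p.Prime] [CharP K p] (Q : Subgroup G) [Finite Q] (ρ : G →* Module.End K V)
    (hirr : Irr (ρ.comp Q.subtype)) (hQ : (Nat.card Q : K) ≠ 0) (x : G)
    (hx : x ∈ Subgroup.normalizer (Q : Set G)) (n : ℕ) (hn : 1 ≤ n) (hxm : x ^ (p ^ n) = 1)
    (hreg : ∀ g ∈ Q, ∀ i, 0 < i → i < p ^ n → x ^ i * g * (x ^ i)⁻¹ = g → ∃ c : K, ρ g = c • 1)
    (hnil : (ρ x - 1) ^ (p ^ n - 1) = 0) :
    finrank K V = 1 ∨ (finrank K V = p ^ n - 1 ∧ (ρ x - 1) ^ (finrank K V - 1) ≠ 0) := by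
  have : Fintype Q := Fintype.ofFinite Q
  have hQ' : (Fintype.card Q : K) ≠ 0 := by rwa [← Nat.card_eq_fintype_card]
  have hnt := hirr.nt
  refine crit_linear n hn (ρ x) (ρ x⁻¹) (by rw [← map_mul, mul_inv_cancel, map_one])
    (by rw [← map_mul, inv_mul_cancel, map_one]) (by rw [← map_pow, hxm, map_one]) (finrank_ne_zero hirr hQ') ?_ hnil
  intro T hT
  exact exists_decomp Q ρ hirr hQ x hx (p ^ n) (pow_pos hp.out.pos n) hxm hreg T hT

end Decomp

end Cfsg.Agent.Lib.HHCrit
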