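import Mathlib
import Cfsg.Agent.Lib.HHCrit
import Cfsg.Agent.Lib.BG02d

/-! The critical case of the Hall-Higman theorem for `Heis` data (helper63). -/

set_option autoImplicit false

namespace Cfsg.Agent.Lib.HHCrit

open Module Cfsg.Agent.Lib.ModRep Cfsg.Agent.Lib.HHLin Cfsg.Agent.Lib.BG02

variable {K : Type*} [Field K] [IsAlgClosed K] {W : Type*} [AddCommGroup W] [Module K W] [FiniteDimensional K W]
variable {G : Type*} [Group G] [Finite G]

/-- a `q`-subgroup has order non-zero in a field of characteristic `p ≠ q`. -/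
theorem card_ne_zero {p q : ℕ} [hp : Fact p.Prime] [hq : Fact q.Prime] [CharP K p] (hpq : p ≠ q) {G : Type*} [Group G]
    {P : Subgroup G} [Finite P] (hP : IsPGroup q P) : (Nat.card P : K) ≠ 0 := by
  obtain ⟨k, hk⟩ := IsPGroup.iff_card.mp hP
  rw [hk, Nat.cast_pow]
  apply pow_ne_zero
  intro h
  rw [CharP.cast_eq_zero_iff K p] at h
  exact hpq ((Nat.prime_dvd_prime_iff_eq hp.out hq.out).mp h)

/-- upper bound for the dimension. -/
theorem finrank_le_index {P Z : Subgroup G} (ρ : G →* Module.End K W)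
    (hsc : ∀ z ∈ Z, ∃ c : K, ρ z = c • 1) (hspan : Submodule.span K (ρ '' (P : Set G)) = ⊤) :
    finrank K (Module.End K W) ≤ (Z.subgroupOf P).index := by
  classical
  have : Fintype (P ⧸ Z.subgroupOf P) := Fintype.ofFinite _
  let f : P ⧸ Z.subgroupOf P → Module.End K W := fun c => ρ (c.out : P)
  have h1 : Submodule.span K (ρ '' (P : Set G)) ≤ Submodule.span K (Set.range f) := by
    rw [Submodule.span_le]
    rintro _ ⟨g, hg, rfl⟩
    let c : P ⧸ Z.subgroupOf P := QuotientGroup.mk ⟨g, hg⟩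
    have h2 : (c.out : P)⁻¹ * ⟨g, hg⟩ ∈ Z.subgroupOf P := by
      rw [← QuotientGroup.eq]
      exact QuotientGroup.out_eq' c
    obtain ⟨a, ha⟩ := hsc _ h2
    have h3 : ρ g = a • f c := by
      have h4 : g = ((c.out : P) : G) * (((c.out : P)⁻¹ * ⟨g, hg⟩ : P) : G) := by
        rw [← Subgroup.coe_mul, mul_inv_cancel_left]
      have ha' : ρ (((c.out : P)⁻¹ * ⟨g, hg⟩ : P) : G) = a • 1 := ha
      conv_lhs => rw [h4, map_mul, ha']
      rw [mul_smul_comm, mul_one]
    rw [SetLike.mem_coe, h3]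
    exact Submodule.smul_mem _ _ (Submodule.subset_span ⟨c, rfl⟩)
  rw [hspan] at h1
  have h2 := finrank_range_le_card (R := K) f
  rw [Set.finrank] at h2
  have h3 : finrank K (Submodule.span K (Set.range f)) = finrank K (Module.End K W) := by
    rw [top_le_iff.mp h1, finrank_top]
  rw [h3, ← Nat.card_eq_fintype_card] at h2
  exact h2

theorem irr_of_span {P : Subgroup G} {ρ : G →* Module.End K W} [hW : Nontrivial W]
    (hspan : Submodule.span K (ρ '' (P : Set G)) = ⊤) : Irr (ρ.comp P.subtype) := by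
  refine ⟨hW, ?_⟩
  intro Y hY
  by_cases hY0 : Y = ⊥
  · exact Or.inl hY0
  · right
    obtain ⟨y, hyY, hy0⟩ := Submodule.exists_mem_ne_zero_of_ne_bot hY0
    have h1 : ∀ T : Module.End K W, T y ∈ Y := by
      intro T
      have hT : T ∈ Submodule.span K (ρ '' (P : Set G)) := by rw [hspan]; trivial
      refine Submodule.span_induction (p := fun T _ => T y ∈ Y) ?_ ?_ ?_ ?_ hT
      · rintro _ ⟨g, hg, rfl⟩
        exact hY ⟨g, hg⟩ y hyY
      · rw [LinearMap.zero_apply]; exact Y.zero_mem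
      · intro a b _ _ ha hb
        rw [LinearMap.add_apply]; exact Y.add_mem ha hb
      · intro c a _ ha
        rw [LinearMap.smul_apply]; exact Y.smul_mem _ ha
    have h2 : ¬ ∀ φ : Module.Dual K W, φ y = 0 := by
      rw [Module.forall_dual_apply_eq_zero_iff K]
      exact hy0
    push Not at h2
    obtain ⟨φ, hφ⟩ := h2
    rw [eq_top_iff]
    intro w _
    have h3 := h1 (φ.smulRight ((φ y)⁻¹ • w))
    rw [LinearMap.smulRight_apply, smul_smul, mul_inv_cancel₀ hφ, one_smul] at h3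
    exact h3

/-- The critical case for `Heis` data. -/
theorem crit_heis {p q : ℕ} [hp : Fact p.Prime] [hq : Fact q.Prime] [CharP K p] (hpq : p ≠ q)
    {P Z : Subgroup G} {c : ℕ} {x : G} (H : Heis P (Subgroup.zpowers x) Z c)
    {ρ : Representation K G W} (hirr : Irr (V := W) ρ) (hPq : IsPGroup q P)
    (hsc : ∀ z ∈ Z, ∃ a : K, ρ z = a • 1) (hsc1 : ∀ z ∈ Z, z ≠ 1 → ρ z ≠ 1)
    (hne : ∃ a ∈ P, ∃ b ∈ P, a * b ≠ b * a) (n : ℕ) (hn : 1 ≤ n) (hord : orderOf x = p ^ n)
    (hnil : (ρ x - 1) ^ (p ^ n - 1) = 0) :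
    ∃ m, 1 ≤ m ∧ p ^ n - 1 = q ^ m ∧ (ρ x - 1) ^ (p ^ n - 1 - 1) ≠ 0 := by
  have hnt := hirr.nt
  have hPK : (Nat.card P : K) ≠ 0 := card_ne_zero hpq hPq
  have hZK : (Nat.card Z : K) ≠ 0 := card_ne_zero hpq (hPq.to_le H.ZP)
  have hsc' : ∀ z ∈ Z, z ≠ 1 → ∃ c : K, c ≠ 1 ∧ ρ z = c • 1 := by
    intro z hz hz1
    obtain ⟨c, hc⟩ := hsc z hz
    refine ⟨c, ?_, hc⟩
    rintro rfl
    rw [one_smul] at hc
    exact hsc1 z hz hz1 hc
  have hspan := span_P_eq_top H hirr hsc' hPK hZK
  have hirrP : Irr (ρ.comp P.subtype) := irr_of_span hspan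
  have hxP : x ∈ Subgroup.normalizer (P : Set G) := by
    have := H.normal
    rw [Subgroup.normalizer_eq_top]
    trivial
  have hc := crit P ρ hirrP hPK x hxP n hn (by rw [← hord, pow_orderOf_eq_one]) ?_ hnil
  · rcases hc with hD | ⟨hD, hD'⟩
    · exfalso
      obtain ⟨a, ha, b, hb, hab⟩ := hne
      -- one-dimensional: everything commutes
      have h1 : ρ a * ρ b = ρ b * ρ a := by
        obtain ⟨v, hv, hv'⟩ := finrank_eq_one_iff'.mp hD
        obtain ⟨α, hα⟩ := hv' (ρ a v)
        obtain ⟨β, hβ⟩ := hv' (ρ b v)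
        apply LinearMap.ext
        intro w
        obtain ⟨γ, rfl⟩ := hv' w
        rw [Module.End.mul_apply, Module.End.mul_apply, map_smul, map_smul, map_smul, map_smul, ← hα, ← hβ,
          map_smul, map_smul, ← hα, ← hβ, smul_comm β α]
      have h2 := H.comm a ha b hb
      have h3 : ρ (a * b * a⁻¹ * b⁻¹) = 1 := by
        rw [map_mul, map_mul, map_mul, h1, mul_assoc (ρ b), ← map_mul ρ a a⁻¹, mul_inv_cancel, map_one, mul_one,
          ← map_mul, mul_inv_cancel, map_one]
      have h4 : a * b * a⁻¹ * b⁻¹ = 1 := by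
        by_contra h5
        exact hsc1 _ h2 h5 h3
      apply hab
      calc a * b = (a * b * a⁻¹ * b⁻¹) * (b * a) := by group
        _ = b * a := by rw [h4, one_mul]
    · have hE : finrank K (Module.End K W) = (Z.subgroupOf P).index :=
        le_antisymm (finrank_le_index ρ hsc hspan) (index_le_finrank H ρ hsc' hPK)
      rw [Module.finrank_linearMap] at hE
      obtain ⟨k, hk⟩ := IsPGroup.iff_card.mp hPq
      have h1 : finrank K W ∣ q ^ k := by
        rw [← hk, ← (Z.subgroupOf P).index_mul_card, ← hE]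
        exact Dvd.intro _ (by rw [mul_assoc])
      obtain ⟨m, _, hm⟩ := (Nat.dvd_prime_pow hq.out).mp h1
      refine ⟨m, ?_, ?_, ?_⟩
      · rw [Nat.one_le_iff_ne_zero]
        rintro rfl
        rw [pow_zero] at hm
        -- D = 1 : then index is 1 and P = Z abelian
        rw [hm] at hE
        have h2 : (Z.subgroupOf P).index = 1 := by rw [← hE, one_mul]
        rw [Subgroup.index_eq_one, Subgroup.subgroupOf_eq_top] at h2
        obtain ⟨a, ha, b, hb, hab⟩ := hne
        exact hab (H.Zc a (h2 ha) b)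
      · rw [← hD, hm]
      · rw [← hD]; exact hD'
  · intro g hg i hi0 hi hfix
    have h1 : x ^ i ≠ 1 := by
      intro h
      have := orderOf_dvd_of_pow_eq_one h
      rw [hord] at this
      exact absurd (Nat.le_of_dvd hi0 this) (by omega)
    apply hsc
    apply H.reg (x ^ i) (Subgroup.pow_mem _ (Subgroup.mem_zpowers x) i) h1 g hg
    exact (mul_inv_eq_iff_eq_mul.mp hfix).symm

end Cfsg.Agent.Lib.HHCrit
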