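import Cfsg.Agent.Lib.MersLin1
import Cfsg.Agent.Lib.HHCrit2

/-!
The Heisenberg step in characteristic two (helper59, for Bryukhanova's theorem).
-/

set_option autoImplicit false

namespace Cfsg.Agent.Lib.BryHeis

open Module Cfsg.Agent.Lib.SympFix Cfsg.Agent.Lib.ModRep Cfsg.Agent.Lib.HHLin Cfsg.Agent.Lib.HHCrit

section Avg

variable {k : Type*} [Field k] {V : Type*} [AddCommGroup V] [Module k V] {Q : Type*} [Group Q]
  [Fintype Q] (h : Q →* Module.End k V)

/-- averaging -/
def avg (T : Module.End k V) : Module.End k V := ∑ g : Q, h g * T * h g⁻¹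

theorem avg_add (S T : Module.End k V) : avg h (S + T) = avg h S + avg h T := by
  rw [avg, avg, avg, ← Finset.sum_add_distrib]
  exact Finset.sum_congr rfl fun g _ => by rw [mul_add, add_mul]

theorem avg_smul (c : k) (T : Module.End k V) : avg h (c • T) = c • avg h T := by
  rw [avg, avg, Finset.smul_sum]
  exact Finset.sum_congr rfl fun g _ => by rw [mul_smul_comm, smul_mul_assoc]

theorem avg_zero : avg h 0 = 0 := by
  rw [avg]
  exact Finset.sum_eq_zero fun g _ => by rw [mul_zero, zero_mul]

theorem avg_sum {ι : Type*} (s : Finset ι) (f : ι → Module.End k V) :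
    avg h (∑ i ∈ s, f i) = ∑ i ∈ s, avg h (f i) := by
  classical
  induction s using Finset.induction_on with
  | empty => rw [Finset.sum_empty, Finset.sum_empty, avg_zero]
  | insert a s ha ih => rw [Finset.sum_insert ha, Finset.sum_insert ha, avg_add, ih]

theorem avg_comm (T : Module.End k V) (y : Q) : h y * avg h T = avg h T * h y := by
  rw [avg, Finset.mul_sum, Finset.sum_mul]
  refine Fintype.sum_equiv (Equiv.mulLeft y) _ _ fun g => ?_
  rw [Equiv.coe_mulLeft, mul_inv_rev, map_mul, map_mul, mul_assoc _ _ (h y),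
    mul_assoc (h g⁻¹), ← map_mul h y⁻¹ y, inv_mul_cancel, map_one, mul_one]
  simp only [mul_assoc]

theorem avg_of_comm {T : Module.End k V} (hT : ∀ y, h y * T = T * h y) :
    avg h T = (Fintype.card Q : k) • T := by
  rw [avg]
  have h1 : ∀ g : Q, h g * T * h g⁻¹ = T := fun g => by
    rw [hT, mul_assoc, ← map_mul, mul_inv_cancel, map_one, mul_one]
  rw [Finset.sum_congr rfl fun g _ => h1 g, Finset.sum_const, Finset.card_univ,
    ← Nat.cast_smul_eq_nsmul k]

variable {M : Type*} [AddCommGroup M] {π : Q → M}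
  (hadd : ∀ x y, π (x * y) = π x + π y) {e : M → M → k} (he : IsPairing e)
  (hnd : ∀ m, (∀ n, e m n = 1) → m = 0) (hπ : Function.Surjective π)
  (hcomm : ∀ x y, h (x * y) = e (π x) (π y) • h (y * x))
  (hsc : ∀ x, π x = 0 → ∃ c : k, h x = c • 1)

omit [Fintype Q] in
theorem h_mul_inv (x : Q) : h x * h x⁻¹ = 1 := by rw [← map_mul, mul_inv_cancel, map_one]

omit [Fintype Q] in
theorem h_inv_mul (x : Q) : h x⁻¹ * h x = 1 := by rw [← map_mul, inv_mul_cancel, map_one]

omit [Fintype Q] in
theorem h_ne_zero [Nontrivial V] (x : Q) : h x ≠ 0 := by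
  intro h0
  have h1 := h_mul_inv h x
  rw [h0, zero_mul] at h1
  exact zero_ne_one h1

include he hnd hπ hcomm in
theorem avg_h [Nontrivial V] (z : Q) [Decidable (π z = 0)] :
    avg h (h z) = (if π z = 0 then (Fintype.card Q : k) else 0) • h z := by
  have h1 : ∀ g, h g * h z * h g⁻¹ = e (π g) (π z) • h z := by
    intro g
    rw [← map_mul, hcomm, map_mul, smul_mul_assoc, mul_assoc, h_mul_inv, mul_one]
  by_cases hz : π z = 0
  · rw [if_pos hz, avg_of_comm]
    intro y
    have h2 := hcomm y z
    rw [hz, he.zero_right, one_smul, map_mul, map_mul] at h2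
    exact h2
  · rw [if_neg hz, zero_smul]
    obtain ⟨n, hn⟩ : ∃ n, e (π z) n ≠ 1 := by
      by_contra hcon
      push Not at hcon
      exact hz (hnd _ hcon)
    obtain ⟨y, rfl⟩ := hπ n
    have h2 : avg h (h z) = (∑ g, e (π g) (π z)) • h z := by
      rw [avg, Finset.sum_smul]
      exact Finset.sum_congr rfl fun g _ => h1 g
    have h3 := avg_comm h (h z) y
    rw [h2, mul_smul_comm, smul_mul_assoc, ← map_mul, ← map_mul, hcomm z y] at h3
    by_contra hne
    rw [h2] at hne
    have hc0 : (∑ g, e (π g) (π z)) ≠ 0 := fun h0 => hne (by rw [h0, zero_smul])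
    rw [smul_smul] at h3
    have h4 : ((∑ g, e (π g) (π z)) - (∑ g, e (π g) (π z)) * e (π z) (π y)) • h (y * z) = 0 := by
      rw [sub_smul, h3, sub_self]
    have h5 := (smul_eq_zero.1 h4).resolve_right (h_ne_zero h _)
    apply hn
    have h6 : (∑ g, e (π g) (π z)) * (1 - e (π z) (π y)) = 0 := by rw [mul_sub, mul_one, h5]
    exact (sub_eq_zero.1 ((mul_eq_zero.1 h6).resolve_left hc0)).symm

include he hnd hπ hcomm hsc in
theorem avg_scalar' [Nontrivial V] {T : Module.End k V}
    (hT : T ∈ Submodule.span k (Set.range h)) : ∃ c : k, avg h T = c • 1 := by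
  classical
  refine Submodule.span_induction (p := fun T _ => ∃ c : k, avg h T = c • 1) ?_ ?_ ?_ ?_ hT
  · rintro _ ⟨z, rfl⟩
    rw [avg_h h he hnd hπ hcomm]
    split_ifs with hz
    · obtain ⟨c, hc⟩ := hsc z hz
      exact ⟨_, by rw [hc, smul_smul]⟩
    · exact ⟨0, by rw [zero_smul, zero_smul]⟩
  · exact ⟨0, by rw [avg_zero, zero_smul]⟩
  · rintro S T _ _ ⟨c, hc⟩ ⟨d, hd⟩
    exact ⟨c + d, by rw [avg_add, hc, hd, add_smul]⟩
  · rintro c T _ ⟨d, hd⟩
    exact ⟨c * d, by rw [avg_smul, hd, smul_smul]⟩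

omit [Fintype Q] in
theorem mul_mem_span {S T : Module.End k V} (hS : S ∈ Submodule.span k (Set.range h))
    (hT : T ∈ Submodule.span k (Set.range h)) : S * T ∈ Submodule.span k (Set.range h) := by
  refine Submodule.span_induction (p := fun S _ => S * T ∈ Submodule.span k (Set.range h))
    ?_ ?_ ?_ ?_ hS
  · rintro _ ⟨x, rfl⟩
    refine Submodule.span_induction (p := fun T _ => h x * T ∈ Submodule.span k (Set.range h))
      ?_ ?_ ?_ ?_ hT
    · rintro _ ⟨y, rfl⟩
      rw [← map_mul]
      exact Submodule.subset_span ⟨_, rfl⟩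
    · rw [mul_zero]; exact zero_mem _
    · intro a b _ _ ha hb
      rw [mul_add]; exact add_mem ha hb
    · intro c a _ ha
      rw [mul_smul_comm]; exact Submodule.smul_mem _ _ ha
  · rw [zero_mul]; exact zero_mem _
  · intro a b _ _ ha hb
    rw [add_mul]; exact add_mem ha hb
  · intro c a _ ha
    rw [smul_mul_assoc]; exact Submodule.smul_mem _ _ ha

omit [Fintype Q] in
theorem one_mem_span : (1 : Module.End k V) ∈ Submodule.span k (Set.range h) :=
  Submodule.subset_span ⟨1, map_one h⟩

omit [Fintype Q] in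
theorem pow_mem_span {S : Module.End k V} (hS : S ∈ Submodule.span k (Set.range h)) (n : ℕ) :
    S ^ n ∈ Submodule.span k (Set.range h) := by
  induction n with
  | zero => rw [pow_zero]; exact one_mem_span h
  | succ n ih => rw [pow_succ]; exact mul_mem_span h ih hS

omit [Fintype Q] in
theorem comm_of_mem_span {S : Module.End k V} (hS : S ∈ Submodule.span k (Set.range h))
    {T : Module.End k V} (hT : ∀ x, T * h x = h x * T) : T * S = S * T := by
  refine Submodule.span_induction (p := fun S _ => T * S = S * T) ?_ ?_ ?_ ?_ hS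
  · rintro _ ⟨x, rfl⟩
    exact hT x
  · rw [mul_zero, zero_mul]
  · intro a b _ _ ha hb
    rw [mul_add, add_mul, ha, hb]
  · intro c a _ ha
    rw [mul_smul_comm, smul_mul_assoc, ha]

omit [Fintype Q] in
theorem apply_mem {S : Module.End k V} (hS : S ∈ Submodule.span k (Set.range h))
    {Y : Submodule k V} (hY : Inv h Y) {v : V} (hv : v ∈ Y) : S v ∈ Y := by
  refine Submodule.span_induction (p := fun S _ => S v ∈ Y) ?_ ?_ ?_ ?_ hS
  · rintro _ ⟨x, rfl⟩
    exact hY x v hv
  · rw [LinearMap.zero_apply]; exact zero_mem _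
  · intro a b _ _ ha hb
    rw [LinearMap.add_apply]; exact add_mem ha hb
  · intro c a _ ha
    rw [LinearMap.smul_apply]; exact Submodule.smul_mem _ _ ha

/-- the number of elements in the kernel -/
def kerCard (π : Q → M) [DecidablePred fun x => π x = 0] : k := ∑ x : Q, if π x = 0 then 1 else 0

include he hnd hπ hcomm in
theorem recover [Nontrivial V] [DecidablePred fun x => π x = 0] {T : Module.End k V}
    (hT : T ∈ Submodule.span k (Set.range h)) :
    ∑ y : Q, avg h (T * h y⁻¹) * h y = ((Fintype.card Q : k) * kerCard π) • T := by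
  refine Submodule.span_induction
    (p := fun T _ => ∑ y : Q, avg h (T * h y⁻¹) * h y = ((Fintype.card Q : k) * kerCard π) • T)
    ?_ ?_ ?_ ?_ hT
  · rintro _ ⟨z, rfl⟩
    have h1 : ∀ y : Q, avg h (h z * h y⁻¹) * h y =
        (if π (z * y⁻¹) = 0 then (Fintype.card Q : k) else 0) • h z := by
      intro y
      rw [← map_mul, avg_h h he hnd hπ hcomm, smul_mul_assoc, ← map_mul, inv_mul_cancel_right]
    rw [Finset.sum_congr rfl fun y _ => h1 y, ← Finset.sum_smul]
    congr 1
    rw [kerCard, Finset.mul_sum]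
    refine Fintype.sum_equiv ((Equiv.inv Q).trans (Equiv.mulLeft z)) _ _ fun y => ?_
    simp
  · simp only [zero_mul, avg_zero, Finset.sum_const_zero, smul_zero]
  · intro a b _ _ ha hb
    simp only [add_mul, avg_add, Finset.sum_add_distrib, ha, hb, smul_add]
  · intro c a _ ha
    simp only [smul_mul_assoc, avg_smul]
    rw [← Finset.smul_sum, ha, smul_comm]

include he hnd hπ hcomm hsc in
theorem eq_zero_of_sub [Nontrivial V] [DecidablePred fun x => π x = 0]
    (hk : ((Fintype.card Q : k) * kerCard π) ≠ 0) {T : Module.End k V}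
    (hT : T ∈ Submodule.span k (Set.range h)) {Y : Submodule k V} (hY : Inv h Y) {v₀ : V}
    (hv₀ : v₀ ∈ Y) (hv₀0 : v₀ ≠ 0) (hTY : ∀ v ∈ Y, T v = 0) : T = 0 := by
  have h1 : ∀ y : Q, avg h (T * h y⁻¹) = 0 := by
    intro y
    obtain ⟨c, hc⟩ := avg_scalar' h he hnd hπ hcomm hsc
      (mul_mem_span h hT (Submodule.subset_span ⟨y⁻¹, rfl⟩))
    have h2 : avg h (T * h y⁻¹) v₀ = 0 := by
      rw [avg, LinearMap.sum_apply]
      refine Finset.sum_eq_zero fun g _ => ?_
      rw [Module.End.mul_apply, Module.End.mul_apply, Module.End.mul_apply,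
        hTY _ (hY _ _ (hY _ _ hv₀)), map_zero]
    rw [hc, LinearMap.smul_apply, Module.End.one_apply] at h2
    rw [hc, (smul_eq_zero.1 h2).resolve_right hv₀0, zero_smul]
  have h2 := recover h he hnd hπ hcomm hT
  rw [Finset.sum_eq_zero fun y _ => by rw [h1, zero_mul]] at h2
  exact (smul_eq_zero.1 h2.symm).resolve_left hk

section Twist

variable (φ : Q →* Q)

/-- the intertwiner -/
def twist : Module.End k V := ∑ x : Q, h (φ x * x⁻¹)

/-- the opposite intertwiner -/
def twist' : Module.End k V := ∑ x : Q, h (x * (φ x)⁻¹)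

theorem twist_mem : twist h φ ∈ Submodule.span k (Set.range h) :=
  Submodule.sum_mem _ fun _ _ => Submodule.subset_span ⟨_, rfl⟩

theorem twist_comm (y : Q) : h (φ y) * twist h φ = twist h φ * h y := by
  rw [twist, Finset.mul_sum, Finset.sum_mul]
  refine Fintype.sum_equiv (Equiv.mulLeft y) _ _ fun x => ?_
  rw [Equiv.coe_mulLeft, ← map_mul h, ← map_mul h, map_mul φ]
  congr 1
  group

theorem twist'_comm (y : Q) : twist' h φ * h (φ y) = h y * twist' h φ := by
  rw [twist', Finset.mul_sum, Finset.sum_mul]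
  symm
  refine Fintype.sum_equiv (Equiv.mulLeft y) _ _ fun x => ?_
  rw [Equiv.coe_mulLeft, ← map_mul h, ← map_mul h, map_mul φ]
  congr 1
  group

include he hnd hπ hcomm hsc hadd in
theorem twist_prod [Nontrivial V] [DecidablePred fun x => π x = 0]
    (hk : (Fintype.card Q : k) ≠ 0) {s s' : Module.End k V} (hss' : s * s' = 1)
    (hsh : ∀ x, s * h x = h (φ x) * s) {A : M → M} (hA : ∀ x, π (φ x) = A (π x))
    (hfree : ∀ m, A m = m → m = 0) :
    twist' h φ * twist h φ = ((Fintype.card Q : k) * kerCard π) • 1 := by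
  have hπ1 : π 1 = 0 := by
    have h1 := hadd 1 1
    rw [mul_one] at h1
    exact left_eq_add.1 h1
  have hπinv : ∀ x, π x⁻¹ = -π x := by
    intro x
    have h1 := hadd x x⁻¹
    rw [mul_inv_cancel, hπ1] at h1
    exact (neg_eq_of_add_eq_zero_right h1.symm).symm
  have h1 := avg_of_comm h (T := twist' h φ * twist h φ) (by
    intro y
    rw [← mul_assoc, ← twist'_comm, mul_assoc, twist_comm, mul_assoc])
  have h2 : twist' h φ * twist h φ = ∑ y : Q, ∑ x : Q, h (y * (φ y)⁻¹ * (φ x * x⁻¹)) := by
    rw [twist', twist, Finset.sum_mul]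
    refine Finset.sum_congr rfl fun y _ => ?_
    rw [Finset.mul_sum]
    exact Finset.sum_congr rfl fun x _ => (map_mul h _ _).symm
  have h3 : ∀ y x : Q, avg h (h (y * (φ y)⁻¹ * (φ x * x⁻¹))) =
      (if π (y⁻¹ * x) = 0 then (Fintype.card Q : k) else 0) • 1 := by
    intro y x
    have hz : y * (φ y)⁻¹ * (φ x * x⁻¹) = y * (φ (y⁻¹ * x) * (y⁻¹ * x)⁻¹) * y⁻¹ := by
      rw [map_mul, map_inv]; group
    rw [hz]
    set w := y⁻¹ * x with hw
    have hπz : π (y * (φ w * w⁻¹) * y⁻¹) = A (π w) - π w := by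
      rw [hadd, hadd, hadd, hπinv, hπinv, hA]; abel
    rw [avg_h h he hnd hπ hcomm]
    by_cases h0 : π w = 0
    · have h4 : A (π w) - π w = 0 := by
        have h5 : h (φ w) = h w := by
          obtain ⟨c, hc⟩ := hsc w h0
          have h6 := hsh w
          rw [hc, mul_smul_comm, mul_one] at h6
          have h7 := congrArg (fun T => T * s') h6
          simp only [smul_mul_assoc, mul_assoc, hss', mul_one] at h7
          rw [hc, h7]
        -- `φ w` acts as a scalar, hence lies in the kernel
        have h6 : π (φ w) = 0 := by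
          apply hnd
          intro n
          obtain ⟨t, rfl⟩ := hπ n
          have h7 := hcomm (φ w) t
          have h8 := hcomm w t
          rw [map_mul h, map_mul h, h5, ← map_mul h, ← map_mul h, h8, h0, he.zero_left,
            one_smul] at h7
          have h9 : (1 - e (π (φ w)) (π t)) • h (t * w) = 0 := by
            rw [sub_smul, one_smul, ← h7, sub_self]
          exact (sub_eq_zero.1 ((smul_eq_zero.1 h9).resolve_right (h_ne_zero h _))).symm
        rw [← hA, h6, h0, sub_zero]
      rw [if_pos (hπz.trans h4), if_pos h0]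
      congr 1
      have h5 : h (φ w) = h w := by
        obtain ⟨c, hc⟩ := hsc w h0
        have h6 := hsh w
        rw [hc, mul_smul_comm, mul_one] at h6
        have h7 := congrArg (fun T => T * s') h6
        simp only [smul_mul_assoc, mul_assoc, hss', mul_one] at h7
        rw [hc, h7]
      rw [map_mul, map_mul, map_mul, h5, h_mul_inv, mul_one, h_mul_inv]
    · have h4 : ¬ (A (π w) - π w = 0) := fun h5 => h0 (hfree _ (sub_eq_zero.1 h5))
      rw [if_neg (fun h6 => h4 (hπz.symm.trans h6)), if_neg h0, zero_smul, zero_smul]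
  have h4 : avg h (twist' h φ * twist h φ) =
      ((Fintype.card Q : k) * ((Fintype.card Q : k) * kerCard π)) • 1 := by
    rw [h2, avg_sum]
    have h5 : ∀ y : Q, avg h (∑ x : Q, h (y * (φ y)⁻¹ * (φ x * x⁻¹))) =
        ((Fintype.card Q : k) * kerCard π) • 1 := by
      intro y
      rw [avg_sum, Finset.sum_congr rfl fun x _ => h3 y x, ← Finset.sum_smul]
      congr 1
      rw [kerCard, Finset.mul_sum]
      refine Fintype.sum_equiv (Equiv.mulLeft y⁻¹) _ _ fun x => ?_
      rw [Equiv.coe_mulLeft, mul_ite, mul_one, mul_zero]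
    rw [Finset.sum_congr rfl fun y _ => h5 y, Finset.sum_const, Finset.card_univ,
      ← Nat.cast_smul_eq_nsmul k, smul_smul]
  rw [h4, ← smul_smul] at h1
  have h5 := congrArg (fun T => (Fintype.card Q : k)⁻¹ • T) h1
  simp only [smul_smul, inv_mul_cancel₀ hk, one_smul, inv_mul_cancel_left₀ hk] at h5
  rw [← h5]

end Twist

end Avg

end Cfsg.Agent.Lib.BryHeis
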