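import Cfsg.Agent.Lib.BryHeis

/-!
The Heisenberg step in characteristic two (helper59, for Bryukhanova's theorem), main statement.
-/

set_option autoImplicit false

namespace Cfsg.Agent.Lib.BryHeis

open Module Cfsg.Agent.Lib.SympFix Cfsg.Agent.Lib.ModRep Cfsg.Agent.Lib.HHLin Cfsg.Agent.Lib.HHCrit

theorem card_ne_zero' {k : Type*} [Field k] {q : ℕ} (hkq : (q : k) ≠ 0) {Q : Type*} [Group Q]
    [Finite Q] (hq : q.Prime) (hQ : IsPGroup q Q) : (Nat.card Q : k) ≠ 0 := by
  have := Fact.mk hq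
  obtain ⟨j, hj⟩ := IsPGroup.iff_card.1 hQ
  rw [hj, Nat.cast_pow]
  exact pow_ne_zero _ hkq

theorem kerCard_ne_zero {k : Type*} [Field k] {q : ℕ} (hkq : (q : k) ≠ 0) {Q : Type*} [Group Q]
    [Fintype Q] (hq : q.Prime) (hQ : IsPGroup q Q) {M : Type*} [AddCommGroup M] {π : Q → M}
    (hadd : ∀ x y, π (x * y) = π x + π y) [DecidablePred fun x => π x = 0] :
    (kerCard π : k) ≠ 0 := by
  have hπ1 : π 1 = 0 := by
    have h1 := hadd 1 1
    rw [mul_one] at h1
    exact left_eq_add.1 h1
  let R : Subgroup Q :=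
    { carrier := {x | π x = 0}
      one_mem' := hπ1
      mul_mem' := fun {a b} ha hb => by
        change π (a * b) = 0
        rw [hadd, show π a = 0 from ha, show π b = 0 from hb, add_zero]
      inv_mem' := fun {a} ha => by
        have h1 := hadd a a⁻¹
        rw [mul_inv_cancel, hπ1, show π a = 0 from ha, zero_add] at h1
        exact h1.symm }
  have h1 : (kerCard π : k) = (Nat.card R : k) := by
    rw [kerCard, Finset.sum_boole]
    congr 1
    symm
    refine Nat.subtype_card (p := fun x => x ∈ R) _ fun x => ?_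
    rw [Finset.mem_filter]
    exact ⟨fun h => h.2, fun h => ⟨Finset.mem_univ _, h⟩⟩
  rw [h1]
  exact card_ne_zero' hkq hq (hQ.to_subgroup R)

theorem card_dvd {Q : Type*} [Group Q] [Finite Q] {M : Type*} [AddCommGroup M] {π : Q → M}
    (hπ : Function.Surjective π) (hadd : ∀ x y, π (x * y) = π x + π y) :
    Nat.card M ∣ Nat.card Q := by
  let f : Q →* Multiplicative M := MonoidHom.mk' (fun x => Multiplicative.ofAdd (π x)) (by
    intro a b
    rw [← ofAdd_add, hadd])
  have h1 : Function.Surjective f := hπ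
  have h2 := Subgroup.card_dvd_of_surjective f h1
  exact h2

section Main

variable {k : Type*} [Field k] [IsAlgClosed k] {V : Type*} [AddCommGroup V] [Module k V]
  [FiniteDimensional k V] {Q : Type*} [Group Q]

/-- the dimension of an irreducible representation of a Heisenberg group -/
theorem finrank_sq (h : Q →* Module.End k V) (hirr : Irr h) {M : Type*} [AddCommGroup M]
    [Finite M] {π : Q → M} (hπ : Function.Surjective π) (hadd : ∀ x y, π (x * y) = π x + π y)
    {e : M → M → k} (he : IsPairing e) (hnd : ∀ m, (∀ n, e m n = 1) → m = 0)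
    (hcomm : ∀ x y, h (x * y) = e (π x) (π y) • h (y * x))
    (hsc : ∀ x, π x = 0 → ∃ c : k, h x = c • 1) (hcard : (Nat.card M : k) ≠ 0) :
    Nat.card M = finrank k V * finrank k V := by
  classical
  have hnt := hirr.nt
  let _ : Fintype M := Fintype.ofFinite M
  apply le_antisymm (MersLin1.card_le_sq h π hπ he hnd hcomm hcard)
  rw [← Module.finrank_linearMap (R := k) (S := k) (M := V) (N := V)]
  have hπ1 : π 1 = 0 := by
    have h1 := hadd 1 1
    rw [mul_one] at h1
    exact left_eq_add.1 h1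
  have hπinv : ∀ x, π x⁻¹ = -π x := by
    intro x
    have h1 := hadd x x⁻¹
    rw [mul_inv_cancel, hπ1] at h1
    exact (neg_eq_of_add_eq_zero_right h1.symm).symm
  choose t ht using hπ
  let f : M → Module.End k V := fun m => h (t m)
  have h1 : Submodule.span k (Set.range h) ≤ Submodule.span k (Set.range f) := by
    rw [Submodule.span_le]
    rintro _ ⟨x, rfl⟩
    obtain ⟨c, hc⟩ := hsc (x * (t (π x))⁻¹) (by rw [hadd, hπinv, ht, add_neg_cancel])
    have h2 : h x = c • f (π x) := by
      have h3 : x = x * (t (π x))⁻¹ * t (π x) := by group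
      conv_lhs => rw [h3]
      rw [map_mul, hc, smul_mul_assoc, one_mul]
    rw [h2]
    exact Submodule.smul_mem _ _ (Submodule.subset_span ⟨_, rfl⟩)
  have h2 : Submodule.span k (Set.range f) = ⊤ := by
    rw [eq_top_iff]
    intro T _
    exact h1 (burnside_span (ρ := h) hirr T)
  have h3 := finrank_range_le_card (R := k) f
  rw [Set.finrank, h2, finrank_top, ← Nat.card_eq_fintype_card] at h3
  exact h3

theorem heis2 [CharP k 2] [Nontrivial V] [Finite Q] (h : Q →* Module.End k V) {M : Type*}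
    [AddCommGroup M] [Finite M] [Nontrivial M] {π : Q → M}
    (hπ : Function.Surjective π) (hadd : ∀ x y, π (x * y) = π x + π y) {e : M → M → k}
    (he : IsPairing e) (hnd : ∀ m, (∀ n, e m n = 1) → m = 0)
    (hcomm : ∀ x y, h (x * y) = e (π x) (π y) • h (y * x))
    (hsc : ∀ x, π x = 0 → ∃ c : k, h x = c • 1) {b : ℕ} (hb : 1 ≤ b) {s : Module.End k V}
    (hsN : s ^ 2 ^ b = 1) (φ : Q →* Q) (hsh : ∀ x, s * h x = h (φ x) * s) {A : M → M}
    (hA : ∀ x, π (φ x) = A (π x)) (hfree : ∀ i, 0 < i → i < 2 ^ b → ∀ m, A^[i] m = m → m = 0)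
    (hnil : (s - 1) ^ (2 ^ b - 1) = 0) {q : ℕ} (hq : q.Prime) (hQ : IsPGroup q Q)
    (hkq : (q : k) ≠ 0) :
    (∃ m, 0 < m ∧ 2 ^ b = q ^ m + 1 ∧ Nat.card M = q ^ (2 * m)) ∧
      s ∈ Submodule.span k (Set.range h) := by
  classical
  have h2f : Fact (Nat.Prime 2) := ⟨Nat.prime_two⟩
  have hqf := Fact.mk hq
  let _ : Fintype Q := Fintype.ofFinite Q
  have hcQ : (Fintype.card Q : k) ≠ 0 := by
    rw [← Nat.card_eq_fintype_card]; exact card_ne_zero' hkq hq hQ
  have hkc : (kerCard π : k) ≠ 0 := kerCard_ne_zero hkq hq hQ hadd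
  have hck : ((Fintype.card Q : k) * kerCard π) ≠ 0 := mul_ne_zero hcQ hkc
  set N := 2 ^ b with hN
  have hN2 : 2 ≤ N := by
    rw [hN]
    calc 2 = 2 ^ 1 := (pow_one 2).symm
      _ ≤ 2 ^ b := Nat.pow_le_pow_right (by norm_num) hb
  have hNs : N - 1 + 1 = N := by omega
  have hss' : s * s ^ (N - 1) = 1 := by rw [← pow_succ', hNs, hsN]
  have hs's : s ^ (N - 1) * s = 1 := by rw [← pow_succ, hNs, hsN]
  have hπ1 : π 1 = 0 := by
    have h1 := hadd 1 1
    rw [mul_one] at h1
    exact left_eq_add.1 h1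
  have hπinv : ∀ x, π x⁻¹ = -π x := by
    intro x
    have h1 := hadd x x⁻¹
    rw [mul_inv_cancel, hπ1] at h1
    exact (neg_eq_of_add_eq_zero_right h1.symm).symm
  -- the intertwiner
  have hprod := twist_prod h hadd he hnd hπ hcomm hsc φ hcQ hss' hsh hA
    (fun m hm => hfree 1 one_pos (by omega) m hm)
  set c₀ : k := (Fintype.card Q : k) * kerCard π with hc₀
  set Φ := twist h φ with hΦ
  set Φ' := twist' h φ with hΦ'
  have hΦc : ∀ y, h (φ y) * Φ = Φ * h y := twist_comm h φ
  have hΦm : Φ ∈ Submodule.span k (Set.range h) := twist_mem h φ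
  have hΦpow : ∀ i : ℕ, Φ' ^ i * Φ ^ i = c₀ ^ i • 1 := by
    intro i
    induction i with
    | zero => simp
    | succ i ih =>
      rw [pow_succ, pow_succ', mul_assoc, ← mul_assoc Φ' Φ, hprod, smul_mul_assoc, one_mul,
        mul_smul_comm, ih, smul_smul, pow_succ']
  have hsi : ∀ (i : ℕ) (y : Q), s ^ i * h y = h (φ^[i] y) * s ^ i := by
    intro i
    induction i with
    | zero => intro y; simp
    | succ i ih =>
      intro y
      rw [pow_succ, mul_assoc, hsh, ← mul_assoc, ih, mul_assoc, Function.iterate_succ_apply]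
  have hΦi : ∀ (i : ℕ) (y : Q), Φ ^ i * h y = h (φ^[i] y) * Φ ^ i := by
    intro i
    induction i with
    | zero => intro y; simp
    | succ i ih =>
      intro y
      rw [pow_succ, mul_assoc, ← hΦc, ← mul_assoc, ih, mul_assoc, Function.iterate_succ_apply]
  have hφN : ∀ y, h (φ^[N] y) = h y := by
    intro y
    have h1 := hsi N y
    rw [hsN, one_mul, mul_one] at h1
    exact h1.symm
  have hΦN : ∀ y, h y * Φ ^ N = Φ ^ N * h y := fun y => by rw [hΦi, hφN]
  obtain ⟨c₁, hc₁⟩ : ∃ c : k, Φ ^ N = c • 1 := by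
    obtain ⟨c, hc⟩ := avg_scalar' h he hnd hπ hcomm hsc (pow_mem_span h hΦm N)
    rw [avg_of_comm h hΦN] at hc
    refine ⟨(Fintype.card Q : k)⁻¹ * c, ?_⟩
    rw [← smul_smul, ← hc, smul_smul, inv_mul_cancel₀ hcQ, one_smul]
  have hc₁0 : c₁ ≠ 0 := by
    rintro rfl
    have h1 := hΦpow N
    rw [hc₁, zero_smul, mul_zero] at h1
    have h2 : (c₀ ^ N • (1 : Module.End k V)) ≠ 0 :=
      smul_ne_zero (pow_ne_zero _ hck) one_ne_zero
    exact h2 h1.symm
  obtain ⟨d, hd⟩ := IsAlgClosed.exists_pow_nat_eq c₁⁻¹ (n := N) (by omega)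
  set u₀ := d • Φ with hu₀
  have hu₀N : u₀ ^ N = 1 := by
    rw [hu₀, smul_pow, hd, hc₁, smul_smul, inv_mul_cancel₀ hc₁0, one_smul]
  have hu₀c : ∀ y, h (φ y) * u₀ = u₀ * h y := fun y => by
    rw [hu₀, mul_smul_comm, smul_mul_assoc, hΦc]
  have hu₀m : u₀ ∈ Submodule.span k (Set.range h) := Submodule.smul_mem _ _ hΦm
  set v₀ := u₀ ^ (N - 1) with hv₀
  have huv : u₀ * v₀ = 1 := by rw [hv₀, ← pow_succ', hNs, hu₀N]
  have hvu : v₀ * u₀ = 1 := by rw [hv₀, ← pow_succ, hNs, hu₀N]
  have hv₀c : ∀ y, v₀ * h (φ y) = h y * v₀ := fun y => by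
    calc v₀ * h (φ y) = v₀ * (h (φ y) * u₀) * v₀ := by rw [mul_assoc, mul_assoc, huv, mul_one]
      _ = h y * v₀ := by rw [hu₀c, ← mul_assoc, hvu, one_mul]
  set u₁ := v₀ * s with hu₁
  have hs01 : s = u₀ * u₁ := by rw [hu₁, ← mul_assoc, huv, one_mul]
  have hu₁c : ∀ y, u₁ * h y = h y * u₁ := fun y => by
    rw [hu₁, mul_assoc, hsh, ← mul_assoc, hv₀c, mul_assoc]
  have hu01 : Commute u₀ u₁ := (comm_of_mem_span h hu₀m hu₁c).symm
  have hu₁N : u₁ ^ N = 1 := by
    have h1 := hu01.mul_pow N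
    rw [← hs01, hsN, hu₀N, one_mul] at h1
    exact h1.symm
  set ε := u₁ - 1 with hε
  have hεN : ε ^ N = 0 := by
    rw [hε, hN, sub_one_pow (K := k) (p := 2), ← hN, hu₁N, sub_self]
  have hεc : ∀ y, ε * h y = h y * ε := fun y => by
    rw [hε, sub_mul, mul_sub, hu₁c, one_mul, mul_one]
  have hεu : Commute ε u₀ := comm_of_mem_span h hu₀m hεc
  set n := u₀ - 1 with hn
  have hnm : n ∈ Submodule.span k (Set.range h) := sub_mem hu₀m (one_mem_span h)
  have hεn : Commute ε n := comm_of_mem_span h hnm hεc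
  have hsn : s - 1 = n + u₀ * ε := by
    rw [hs01, hn, hε, mul_sub, mul_one]; abel
  -- the kernel of `ε`
  have hK₁ : LinearMap.ker ε ≠ ⊥ := by
    intro h0
    have h1 : Function.Injective ε := LinearMap.ker_eq_bot.1 h0
    have h2 : ∀ i : ℕ, Function.Injective (ε ^ i) := by
      intro i
      induction i with
      | zero => exact fun a b hab => hab
      | succ i ih =>
        rw [pow_succ]
        exact ih.comp h1
    obtain ⟨v, hv⟩ := exists_ne (0 : V)
    apply hv
    apply h2 N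
    rw [hεN, LinearMap.zero_apply, LinearMap.zero_apply]
  have hKinv : Inv h (LinearMap.ker ε) := by
    intro g w hw
    rw [LinearMap.mem_ker] at hw ⊢
    rw [← Module.End.mul_apply, hεc, Module.End.mul_apply, hw, map_zero]
  obtain ⟨C, hC, hCK, hC0, hCirr⟩ := exists_irr_sub h _ hK₁ hKinv
  have hsK : ∀ (i : ℕ), ∀ v ∈ LinearMap.ker ε, ((s - 1) ^ i) v = (n ^ i) v := by
    intro i
    induction i with
    | zero => intro v _; rfl
    | succ i ih =>
      intro v hv
      have h1 : (s - 1) v = n v := by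
        rw [hsn, LinearMap.add_apply, Module.End.mul_apply, LinearMap.mem_ker.1 hv, map_zero,
          add_zero]
      rw [pow_succ, pow_succ, Module.End.mul_apply, Module.End.mul_apply, h1,
        ih _ (apply_mem h hnm hKinv hv)]
  -- action on `C`
  obtain ⟨y₀, hy₀C, hy₀⟩ := Submodule.exists_mem_ne_zero_of_ne_bot hC0
  have hntC := hCirr.nt
  set ρ₁ := subrep h C hC with hρ₁
  have hρa : ∀ (g : Q) (w : C), ((ρ₁ g w : C) : V) = h g w := fun g w => rfl
  have hcomm₁ : ∀ x y, ρ₁ (x * y) = e (π x) (π y) • ρ₁ (y * x) := by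
    intro x y
    apply LinearMap.ext
    intro w
    apply Subtype.ext
    rw [hρa, hcomm]
    rfl
  have hsc₁ : ∀ x, π x = 0 → ∃ c : k, ρ₁ x = c • 1 := by
    intro x hx
    obtain ⟨c, hc⟩ := hsc x hx
    refine ⟨c, ?_⟩
    apply LinearMap.ext
    intro w
    apply Subtype.ext
    rw [hρa, hc]
    rfl
  have hcM : (Nat.card M : k) ≠ 0 := by
    intro h0
    obtain ⟨t, ht⟩ := card_dvd hπ hadd
    apply card_ne_zero' hkq hq hQ
    rw [ht, Nat.cast_mul, h0, zero_mul]
  have hdimC := finrank_sq ρ₁ hCirr hπ hadd he hnd hcomm₁ hsc₁ hcM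
  have hker : ∀ z, ρ₁ z = 1 → π z = 0 := by
    intro z hz
    apply hnd
    intro m
    obtain ⟨t, rfl⟩ := hπ m
    have hz' : ∀ v ∈ C, h z v = v := by
      intro v hv
      have h1 := congrArg (fun T : Module.End k C => ((T ⟨v, hv⟩ : C) : V)) hz
      exact h1
    have h1 := congrArg (fun T : Module.End k V => T y₀) (hcomm z t)
    simp only [map_mul, LinearMap.smul_apply, Module.End.mul_apply] at h1
    rw [hz' _ (hC t _ hy₀C), hz' _ hy₀C] at h1
    have h2 : (1 - e (π z) (π t)) • h t y₀ = 0 := by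
      rw [sub_smul, one_smul, ← h1, sub_self]
    refine (sub_eq_zero.1 ((smul_eq_zero.1 h2).resolve_right fun h3 => hy₀ ?_)).symm
    have h4 := congrArg (h t⁻¹) h3
    rwa [← Module.End.mul_apply, h_inv_mul, map_zero] at h4
  have hu₀C : ∀ v ∈ C, u₀ v ∈ C := fun v hv => apply_mem h hu₀m hC hv
  have hv₀C : ∀ v ∈ C, v₀ v ∈ C := fun v hv => apply_mem h (pow_mem_span h hu₀m _) hC hv
  let X : (Module.End k C)ˣ :=
    ⟨u₀.restrict hu₀C, v₀.restrict hv₀C, by
      apply LinearMap.ext
      intro w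
      apply Subtype.ext
      change u₀ (v₀ (w : V)) = w
      rw [← Module.End.mul_apply, huv]; rfl, by
      apply LinearMap.ext
      intro w
      apply Subtype.ext
      change v₀ (u₀ (w : V)) = w
      rw [← Module.End.mul_apply, hvu]; rfl⟩
  have hXv : ∀ w : C, (((X : Module.End k C) w : C) : V) = u₀ w := fun w => rfl
  have hXpow : ∀ (i : ℕ) (w : C), ((((X : Module.End k C) ^ i) w : C) : V) = (u₀ ^ i) w := by
    intro i
    induction i with
    | zero => intro w; rfl
    | succ i ih =>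
      intro w
      rw [pow_succ, pow_succ, Module.End.mul_apply, Module.End.mul_apply, ih, hXv]
  have hXnpow : ∀ (i : ℕ) (w : C), ((((X : Module.End k C) - 1) ^ i) w : C) = (n ^ i) (w : V) := by
    intro i
    induction i with
    | zero => intro w; rfl
    | succ i ih =>
      intro w
      rw [pow_succ, pow_succ, Module.End.mul_apply, Module.End.mul_apply, ih]
      rfl
  set γ := ρ₁.toHomUnits with hγ
  have hγv : ∀ g, ((γ g : (Module.End k C)ˣ) : Module.End k C) = ρ₁ g := fun g => rfl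
  have hXγ : ∀ g, X * γ g * X⁻¹ = γ (φ g) := by
    intro g
    rw [mul_inv_eq_iff_eq_mul]
    apply Units.ext
    apply LinearMap.ext
    intro w
    apply Subtype.ext
    change u₀ (h g w) = h (φ g) (u₀ w)
    rw [← Module.End.mul_apply, ← Module.End.mul_apply, hu₀c]
  have hfin : Finite γ.range := Finite.of_surjective _ γ.rangeRestrict_surjective
  have hXiγ : ∀ (i : ℕ) (g : Q), X ^ i * γ g * (X ^ i)⁻¹ = γ (φ^[i] g) := by
    intro i
    induction i with
    | zero => intro g; simp
    | succ i ih =>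
      intro g
      rw [Function.iterate_succ_apply, ← ih, ← hXγ, pow_succ]
      group
  have hAi : ∀ (i : ℕ) (g : Q), π (φ^[i] g) = A^[i] (π g) := by
    intro i
    induction i with
    | zero => intro g; rfl
    | succ i ih =>
      intro g
      rw [Function.iterate_succ_apply, Function.iterate_succ_apply, ih, hA]
  have hγp : IsPGroup q γ.range := hQ.of_surjective _ γ.rangeRestrict_surjective
  have hcrit := crit (K := k) (p := 2) γ.range (Units.coeHom (Module.End k C)) (by
      refine ⟨hntC, fun W hW => hCirr.irr W fun g w hw => ?_⟩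
      exact hW ⟨γ g, g, rfl⟩ w hw) (card_ne_zero' hkq hq hγp) X
    (by
      apply Subgroup.mem_normalizer_fintype
      rintro _ ⟨g, rfl⟩
      exact ⟨φ g, (hXγ g).symm⟩) b hb (by
      apply Units.ext
      apply LinearMap.ext
      intro w
      apply Subtype.ext
      rw [Units.val_pow_eq_pow_val, hXpow, ← hN, hu₀N]; rfl) (by
      rintro _ ⟨g, rfl⟩ i hi0 hi hg
      rw [hXiγ] at hg
      have h1 : ρ₁ (φ^[i] g * g⁻¹) = 1 := by
        have h2 : ρ₁ (φ^[i] g) = ρ₁ g := congrArg Units.val hg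
        rw [map_mul, h2, ← map_mul, mul_inv_cancel, map_one]
      have h2 := hker _ h1
      rw [hadd, hπinv, hAi, ← sub_eq_add_neg, sub_eq_zero] at h2
      exact hsc₁ g (hfree i hi0 hi _ h2)) (by
      apply LinearMap.ext
      intro w
      apply Subtype.ext
      change (((((X : Module.End k C) - 1) ^ (N - 1)) w : C) : V) = 0
      rw [hXnpow, ← hsK _ _ (hCK w.2), hnil, LinearMap.zero_apply])
  -- dimension one is impossible
  have hd1 : finrank k C ≠ 1 := by
    intro h1
    rw [h1, one_mul] at hdimC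
    have h2 : Subsingleton M := (Nat.card_eq_one_iff_unique.1 hdimC).1
    exact not_subsingleton M h2
  obtain ⟨hdC, hnC⟩ := hcrit.resolve_left hd1
  have hnC' : ((X : Module.End k C) - 1) ^ (N - 2) ≠ 0 := by
    rw [hdC] at hnC
    exact hnC
  -- the numerical consequences
  have hnum : ∃ m, 0 < m ∧ N = q ^ m + 1 ∧ Nat.card M = q ^ (2 * m) := by
    obtain ⟨t, ht⟩ := IsPGroup.iff_card.1 hQ
    have h1 : finrank k C ∣ q ^ t := by
      rw [← ht]
      exact (Dvd.intro _ hdimC.symm).trans (card_dvd hπ hadd)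
    obtain ⟨m, hm, hm'⟩ := (Nat.dvd_prime_pow hq).1 h1
    refine ⟨m, ?_, ?_, ?_⟩
    · rcases Nat.eq_zero_or_pos m with rfl | h2
      · rw [pow_zero] at hm'
        exact absurd hm' hd1
      · exact h2
    · rw [← hm', hdC]; omega
    · rw [hdimC, hm', ← pow_add]
      congr 1
      omega
  refine ⟨hnum, ?_⟩
  -- `n ^ (N - 1) = 0`
  have hnN : n ^ (N - 1) = 0 := by
    refine eq_zero_of_sub h he hnd hπ hcomm hsc hck (pow_mem_span h hnm _) hC hy₀C hy₀ ?_
    intro v hv
    rw [← hsK _ _ (hCK hv), hnil, LinearMap.zero_apply]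
  have hnN2 : n ^ (N - 2) ≠ 0 := by
    intro h0
    apply hnC'
    apply LinearMap.ext
    intro w
    apply Subtype.ext
    change (((((X : Module.End k C) - 1) ^ (N - 2)) w : C) : V) = 0
    rw [hXnpow, h0, LinearMap.zero_apply]
  by_cases hε0 : ε = 0
  · have h1 : u₁ = 1 := sub_eq_zero.1 hε0
    rw [hs01, h1, mul_one]
    exact hu₀m
  exfalso
  apply hnN2
  -- a vector `w` with `ε w ≠ 0`, `ε ε w = 0`
  have hex : ∃ j, ε ^ j = 0 := ⟨N, hεN⟩
  set j := Nat.find hex with hj
  have hj0 : ε ^ j = 0 := Nat.find_spec hex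
  have hj2 : 2 ≤ j := by
    by_contra hcon
    have h1 : j = 0 ∨ j = 1 := by omega
    rcases h1 with h1 | h1
    · rw [h1, pow_zero] at hj0
      exact one_ne_zero hj0
    · rw [h1, pow_one] at hj0
      exact hε0 hj0
  have hj1 : ε ^ (j - 1) ≠ 0 := Nat.find_min hex (by omega)
  obtain ⟨w₀, hw₀⟩ : ∃ w, (ε ^ (j - 1)) w ≠ 0 := by
    by_contra hcon
    push Not at hcon
    exact hj1 (LinearMap.ext hcon)
  set w₁ := (ε ^ (j - 2)) w₀ with hw₁
  have hw₁1 : ε w₁ ≠ 0 := by
    rw [hw₁, ← Module.End.mul_apply, ← pow_succ']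
    have : j - 2 + 1 = j - 1 := by omega
    rw [this]; exact hw₀
  have hw₁2 : ε (ε w₁) = 0 := by
    rw [hw₁, ← Module.End.mul_apply, ← Module.End.mul_apply, mul_assoc, ← pow_succ',
      ← pow_succ']
    have : j - 2 + 1 + 1 = j := by omega
    rw [this, hj0, LinearMap.zero_apply]
  -- expansion on `ker ε²`
  have hexp : ∀ (i : ℕ) (w : V), ε (ε w) = 0 →
      ((s - 1) ^ (i + 1)) w = (n ^ (i + 1)) w + ((i + 1 : ℕ) : k) • (n ^ i) (u₀ (ε w)) := by
    intro i
    induction i with
    | zero =>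
      intro w _
      rw [zero_add, pow_one, pow_one, pow_zero, Nat.cast_one, one_smul, hsn]
      rfl
    | succ i ih =>
      intro w hw
      have h1 : (s - 1) ((n ^ (i + 1)) w) = (n ^ (i + 2)) w + (n ^ (i + 1)) (u₀ (ε w)) := by
        rw [hsn, LinearMap.add_apply]
        congr 1
        · rw [← Module.End.mul_apply, ← pow_succ']
        · have h2 : (u₀ * ε) * n ^ (i + 1) = n ^ (i + 1) * (u₀ * ε) := by
            have h3 : Commute u₀ n := by
              rw [hn]; exact (Commute.refl u₀).sub_right (Commute.one_right _)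
            exact (Commute.mul_left h3 hεn).pow_right (i + 1)
          rw [← Module.End.mul_apply, h2]; rfl
      have h2 : (s - 1) ((n ^ i) (u₀ (ε w))) = (n ^ (i + 1)) (u₀ (ε w)) := by
        rw [hsn, LinearMap.add_apply]
        have h4 : (u₀ * ε) ((n ^ i) (u₀ (ε w))) = 0 := by
          have h5 : ε * n ^ i * u₀ * ε = n ^ i * u₀ * (ε * ε) := by
            have h6 : ε * n ^ i = n ^ i * ε := (hεn.pow_right i)
            have h7 : ε * u₀ = u₀ * ε := hεu
            rw [h6, mul_assoc (n ^ i) ε u₀, h7]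
            simp only [mul_assoc]
          have h6 : ε ((n ^ i) (u₀ (ε w))) = 0 := by
            have h7 := congrArg (fun T : Module.End k V => T w) h5
            have h8 : (n ^ i * u₀ * (ε * ε)) w = 0 := by
              change (n ^ i) (u₀ (ε (ε w))) = 0
              rw [hw, map_zero, map_zero]
            exact h7.trans h8
          rw [Module.End.mul_apply, h6, map_zero]
        rw [h4, add_zero, ← Module.End.mul_apply, ← pow_succ']
      rw [pow_succ' (s - 1), Module.End.mul_apply, ih w hw, map_add, map_smul, h1, h2,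
        Nat.cast_succ (i + 1), add_smul, one_smul]
      abel
  have hzero : ∀ w : V, ε (ε w) = 0 → (n ^ (N - 2)) (ε w) = 0 := by
    intro w hw
    have h1 := hexp (N - 2) w hw
    have h2 : N - 2 + 1 = N - 1 := by omega
    rw [h2, hnil, hnN, LinearMap.zero_apply, zero_add] at h1
    have h3 : ((N - 1 : ℕ) : k) ≠ 0 := by
      intro h0
      rw [CharP.cast_eq_zero_iff k 2] at h0
      have h4 : 2 ∣ N := dvd_pow_self 2 (by omega)
      omega
    have h4 := (smul_eq_zero.1 h1.symm).resolve_left h3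
    have h5 : u₀ ((n ^ (N - 2)) (ε w)) = 0 := by
      have h6 : Commute u₀ (n ^ (N - 2)) := by
        have h7 : Commute u₀ n := by
          rw [hn]; exact (Commute.refl u₀).sub_right (Commute.one_right _)
        exact h7.pow_right _
      rw [← h4, ← Module.End.mul_apply, h6.eq]; rfl
    have h6 := congrArg v₀ h5
    rw [← Module.End.mul_apply, hvu, map_zero] at h6
    exact h6
  have hYinv : Inv h ((LinearMap.ker (ε * ε)).map ε) := by
    rintro g _ ⟨w, hw, rfl⟩
    refine ⟨h g w, ?_, ?_⟩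
    · change (ε * ε) (h g w) = 0
      have h1 : ε * ε * h g = h g * (ε * ε) := by rw [mul_assoc, hεc, ← mul_assoc, hεc, mul_assoc]
      have h2 := congrArg (fun T : Module.End k V => T w) h1
      have h3 : (h g * (ε * ε)) w = 0 := by
        rw [Module.End.mul_apply, show (ε * ε) w = 0 from hw, map_zero]
      exact h2.trans h3
    · rw [← Module.End.mul_apply, hεc]; rfl
  exact eq_zero_of_sub h he hnd hπ hcomm hsc hck (pow_mem_span h hnm _) hYinv
    (v₀ := ε w₁) ⟨w₁, hw₁2, rfl⟩ hw₁1 (by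
      rintro _ ⟨w, hw, rfl⟩
      exact hzero w hw)

end Main

end Cfsg.Agent.Lib.BryHeis
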