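import Cfsg.Agent.Lib.WtGroup
import Cfsg.Agent.Lib.CoprimeGen
import Cfsg.Agent.Lib.SolvFPF
import Cfsg.Agent.Lib.H23Nilp
import Cfsg.Agent.Lib.H32PSolv

/-!
Ward's theorem: fixed-point-free action of an elementary abelian group of order `p²` (helper59).
-/

set_option autoImplicit false

namespace Cfsg.Agent.Lib.Ward

open Module Subgroup Cfsg.Agent.Lib.WtGroup Cfsg.Agent.Lib.Weights Cfsg.Agent.Lib.CoprimeAction
  Cfsg.Agent.Lib.CoprimeAction2 Cfsg.Agent.Lib.SubgroupTools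
open scoped commutatorElement

universe u v w

section Basic

variable {Γ : Type u} [Group Γ] [Finite Γ] {k : Type v} {W : Type w} [Field k] [AddCommGroup W]
  [Module k W]

omit [Finite Γ] in
/-- An endomorphism which is trivial on the common eigenvectors of `L` in `U` is trivial on `U`. -/
theorem eq_on_of_weights [IsAlgClosed k] [FiniteDimensional k W] (H : Γ →* Module.End k W)
    (U : Submodule k W) (L : Subgroup Γ) (hU : ∀ x ∈ L, ∀ u ∈ U, H x u ∈ U)
    (hcomm : ∀ x ∈ L, ∀ y ∈ L, ∀ u ∈ U, H x (H y u) = H y (H x u)) (n : ℕ) (hn : (n : k) ≠ 0)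
    (hpow : ∀ x ∈ L, x ^ n = 1) (g : Module.End k W)
    (hg : ∀ v ∈ U, ∀ χ : Γ → k, v ≠ 0 → IsWt H L χ v → g v = v) : ∀ u ∈ U, g u = u := by
  classical
  intro u hu
  have h1 := mem_span_weights U (fun x : L => H (x : Γ)) (fun x u hu => hU x x.2 u hu)
    (fun x y u hu => hcomm x x.2 y y.2 u hu) n hn (fun x u _ => by
      rw [← map_pow, hpow x x.2, map_one]; rfl) u hu
  refine Submodule.span_induction ?_ ?_ ?_ ?_ h1
  · rintro v ⟨hv, χ, hχ⟩
    by_cases hv0 : v = 0
    · rw [hv0, map_zero]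
    · refine hg v hv (fun x => if h : x ∈ L then χ ⟨x, h⟩ else 0) hv0 ?_
      intro x hx
      have := hχ ⟨x, hx⟩
      simp only [hx, dif_pos]
      exact this
  · exact map_zero g
  · intro x y _ _ hx hy
    rw [map_add, hx, hy]
  · intro c x _ hx
    rw [map_smul, hx]

omit [Finite Γ] in
/-- the kernel of a weight -/
def kerWt {H : Γ →* Module.End k W} {L : Subgroup Γ} {χ : Γ → k} {v : W}
    (hv : IsWt H L χ v) (hv0 : v ≠ 0) : Subgroup Γ where
  carrier := {x | x ∈ L ∧ χ x = 1}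
  one_mem' := ⟨one_mem _, isWt_one hv hv0⟩
  mul_mem' := by
    rintro a b ⟨ha, ha'⟩ ⟨hb, hb'⟩
    exact ⟨mul_mem ha hb, by rw [isWt_mul hv hv0 ha hb, ha', hb', one_mul]⟩
  inv_mem' := by
    rintro a ⟨ha, ha'⟩
    refine ⟨inv_mem ha, ?_⟩
    have := isWt_inv hv hv0 ha
    rwa [ha', one_mul] at this

omit [Finite Γ] in
/-- a weight fixed by `S` is trivial on `[L, S]` -/
theorem commutator_le_kerWt {H : Γ →* Module.End k W} {L S : Subgroup Γ} {χ : Γ → k} {v : W}
    (hv : IsWt H L χ v) (hv0 : v ≠ 0) (hS : S ≤ stab L χ) : ⁅L, S⁆ ≤ kerWt hv hv0 := by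
  rw [commutator_le]
  intro x hx s hs
  have h1 := hS hs
  have h2 : s * x⁻¹ * s⁻¹ ∈ L := (mem_normalizer_iff.mp h1.1 _).mp (inv_mem hx)
  have h3 : ⁅x, s⁆ = x * (s * x⁻¹ * s⁻¹) := by rw [commutatorElement_def]; group
  refine ⟨by rw [h3]; exact mul_mem hx h2, ?_⟩
  have h4 := (hS (inv_mem hs)).2 x⁻¹ (inv_mem hx)
  rw [inv_inv] at h4
  rw [h3, isWt_mul hv hv0 hx h2, h4, isWt_inv hv hv0 hx]

/-- a weight fixed by a fixed-point-free coprime group is trivial -/
theorem eq_one_of_fixed {H : Γ →* Module.End k W} {L S : Subgroup Γ} {χ : Γ → k} {v : W}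
    (hv : IsWt H L χ v) (hv0 : v ≠ 0) (hS : S ≤ stab L χ) (hcop : (Nat.card S).Coprime (Nat.card L))
    (hsolv : Group.IsSolvable S ∨ Group.IsSolvable L) (hfix : L ⊓ centralizer (S : Set Γ) = ⊥) :
    ∀ x ∈ L, χ x = 1 := by
  have hN : S ≤ normalizer (L : Set Γ) := fun s hs => (hS hs).1
  have h1 := commutator_sup_centralizer hN hcop hsolv
  rw [hfix, sup_bot_eq] at h1
  intro x hx
  rw [← h1] at hx
  exact (commutator_le_kerWt hv hv0 hS hx).2

omit [Finite Γ] in
/-- two elements generate an elementary abelian group of order `p²` -/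
theorem le_of_rank_two {A S : Subgroup Γ} {p : ℕ} (hp : p.Prime) (hAc : Nat.card A = p ^ 2)
    {a b : Γ} (ha : a ∈ A) (hap : a ^ p = 1) (ha1 : a ≠ 1) (hb : b ∈ A) (hba : b ∉ zpowers a)
    (haS : a ∈ S) (hbS : b ∈ S) : A ≤ S := by
  have := Fact.mk hp
  have hfin : Finite A := Nat.finite_of_card_ne_zero (by rw [hAc]; exact pow_ne_zero _ hp.ne_zero)
  have h1 : zpowers a ≤ S ⊓ A := le_inf (zpowers_le.2 haS) (zpowers_le.2 ha)
  have hfin2 : Finite (S ⊓ A : Subgroup Γ) := Finite.Set.finite_inter_of_right _ _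
  have h2 : Nat.card (zpowers a) = p := by
    rw [Nat.card_zpowers]; exact orderOf_eq_prime hap ha1
  have h3 : Nat.card (S ⊓ A : Subgroup Γ) ∣ p ^ 2 := by
    rw [← hAc]; exact card_dvd_of_le inf_le_right
  obtain ⟨j, hj, hj'⟩ := (Nat.dvd_prime_pow hp).1 h3
  have h4 : Nat.card (zpowers a) ≠ Nat.card (S ⊓ A : Subgroup Γ) := by
    intro h
    have := eq_of_le_of_card_ge h1 h.ge
    apply hba
    rw [this]
    exact ⟨hbS, hb⟩
  have h5 : Nat.card (zpowers a) ≤ Nat.card (S ⊓ A : Subgroup Γ) := card_le_of_le h1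
  have h6 : j = 2 := by
    rw [h2, hj'] at h4 h5
    interval_cases j
    · simp at h5
      exact absurd hp.one_lt (by omega)
    · simp at h4
    · rfl
  have h7 : S ⊓ A = A := eq_of_le_of_card_ge inf_le_right (by rw [hj', h6, hAc])
  exact inf_eq_right.1 h7

omit [Finite Γ] in
theorem gen_of_mem {g u : Γ} {p : ℕ} (hp : p.Prime) (hg : g ^ p = 1) (hu : u ∈ zpowers g)
    (hu1 : u ≠ 1) : g ∈ zpowers u := by
  have hg1 : g ≠ 1 := by
    rintro rfl
    rw [zpowers_one_eq_bot, mem_bot] at hu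
    exact hu1 hu
  have h1 : orderOf g = p := by
    have := Fact.mk hp
    exact orderOf_eq_prime hg hg1
  have hfin : Finite (zpowers g) := Nat.finite_of_card_ne_zero (by
    rw [Nat.card_zpowers, h1]; exact hp.ne_zero)
  have h2 : orderOf u = p := by
    have := Fact.mk hp
    obtain ⟨n, rfl⟩ := mem_zpowers_iff.1 hu
    exact orderOf_eq_prime (by rw [← zpow_natCast, ← zpow_mul, mul_comm, zpow_mul, zpow_natCast, hg,
      one_zpow]) hu1
  have h3 : zpowers u = zpowers g := eq_of_le_of_card_ge (zpowers_le.2 hu) (by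
    rw [Nat.card_zpowers, Nat.card_zpowers, h1, h2])
  rw [h3]
  exact mem_zpowers g

/-- the weight space as a submodule -/
def wtSub (H : Γ →* Module.End k W) (L : Subgroup Γ) (χ : Γ → k) : Submodule k W where
  carrier := {v | IsWt H L χ v}
  add_mem' := by
    intro a b ha hb x hx
    rw [map_add, ha x hx, hb x hx, smul_add]
  zero_mem' := by
    intro x _
    rw [map_zero, smul_zero]
  smul_mem' := by
    intro c a ha x hx
    rw [map_smul, ha x hx, smul_smul, smul_smul, mul_comm]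

omit [Finite Γ] in
theorem mem_wtSub {H : Γ →* Module.End k W} {L : Subgroup Γ} {χ : Γ → k} {v : W} :
    v ∈ wtSub H L χ ↔ IsWt H L χ v := Iff.rfl

omit [Finite Γ] in
theorem ne_zero_of_H {H : Γ →* Module.End k W} {v : W} (hv : v ≠ 0) (g : Γ) : H g v ≠ 0 := by
  intro h
  apply hv
  have h1 := congrArg (fun w => H g⁻¹ w) h
  simpa [← Module.End.mul_apply, ← map_mul] using h1

end Basic

section Main

variable {Γ : Type u} [Group Γ] [Finite Γ]

omit [Finite Γ] in
/-- `[R,T] = 1` from the three subgroups lemma, elementwise: if `T` centralizes `D`, `Q` normalizes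
`D` and `Q = [Q,T]` then `Q` centralizes `D`. -/
theorem le_centralizer_of_commutator_eq {Q T D : Subgroup Γ} (hQT : ⁅Q, T⁆ = Q)
    (hQD : Q ≤ normalizer (D : Set Γ)) (hTD : T ≤ centralizer (D : Set Γ)) :
    Q ≤ centralizer (D : Set Γ) := by
  rw [← hQT, commutator_le]
  intro x hx τ hτ
  rw [mem_centralizer_iff]
  intro d hd
  have h1 : τ * d * τ⁻¹ = d := by
    rw [mul_inv_eq_iff_eq_mul, ← mem_centralizer_iff.mp (hTD hτ) d hd]
  have h1' : τ⁻¹ * d * τ = d := by
    have := mem_centralizer_iff.mp (inv_mem (hTD hτ)) d hd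
    rw [← this]; group
  have h2 : x⁻¹ * d * x ∈ D := by
    have := (mem_normalizer_iff.mp (inv_mem (hQD hx)) d).mp hd
    rwa [inv_inv] at this
  have h3 : τ * (x⁻¹ * d * x) * τ⁻¹ = x⁻¹ * d * x := by
    rw [mul_inv_eq_iff_eq_mul, ← mem_centralizer_iff.mp (hTD hτ) _ h2]
  -- `⁅x, τ⁆⁻¹ d ⁅x, τ⁆ = d`
  have h4 : ⁅x, τ⁆⁻¹ * d * ⁅x, τ⁆ = τ * x * (τ⁻¹ * (x⁻¹ * d * x) * τ) * x⁻¹ * τ⁻¹ := by
    rw [commutatorElement_def]; group
  have h5 : τ⁻¹ * (x⁻¹ * d * x) * τ = x⁻¹ * d * x := by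
    nth_rewrite 1 [← h3]
    group
  have h6 : ⁅x, τ⁆⁻¹ * d * ⁅x, τ⁆ = d := by
    rw [h4, h5]
    have : τ * x * (x⁻¹ * d * x) * x⁻¹ * τ⁻¹ = τ * d * τ⁻¹ := by group
    rw [this, h1]
  calc d * ⁅x, τ⁆ = ⁅x, τ⁆ * (⁅x, τ⁆⁻¹ * d * ⁅x, τ⁆) := by group
    _ = ⁅x, τ⁆ * d := by rw [h6]

/-- The configuration `[O_q(K), T] ≠ 1` is impossible. -/
theorem false_of_config {Γ : Type u} [Group Γ] [Finite Γ] {k : Type v} {W : Type w} [Field k]
    [IsAlgClosed k] [AddCommGroup W] [Module k W] [FiniteDimensional k W]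
    (H : Γ →* Module.End k W) (K A Q₀ T₀ : Subgroup Γ) [Fintype A] (hKs : Group.IsSolvable K)
    (hAK : A ≤ normalizer (K : Set Γ)) (hinj : ∀ x ∈ K, H x = 1 → x = 1)
    {p : ℕ} (hp : p.Prime) (hA : Cfsg.IsElementaryAbelian p A) (hAc : Nat.card A = p ^ 2)
    (hcop : ¬ p ∣ Nat.card K) (hfix : K ⊓ centralizer (A : Set Γ) = ⊥)
    (hsum : ∀ w : W, ∑ a : A, H (a : Γ) w = 0)
    {q t : ℕ} (hq : q.Prime) (ht : t.Prime) (hqt : q ≠ t) (hqk : (q : k) ≠ 0)
    (hQ₀ : IsPGroup q Q₀) (hQ₀K : Q₀ ≤ K) (hKQ₀ : K ≤ normalizer (Q₀ : Set Γ))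
    (hAQ₀ : A ≤ normalizer (Q₀ : Set Γ)) (hT₀ : IsPGroup t T₀) (hT₀K : T₀ ≤ K)
    (hAT₀ : A ≤ normalizer (T₀ : Set Γ)) (hne : ⁅Q₀, T₀⁆ ≠ ⊥) : False := by
  classical
  have hpf := Fact.mk hp
  have hqf := Fact.mk hq
  have htf := Fact.mk ht
  have hAab : ∀ a ∈ A, ∀ b ∈ A, a * b = b * a := fun a ha b hb =>
    isMulCommutative_iff_of_setLike.mp hA.1 a ha b hb
  have hnc : ¬ IsCyclic A := by
    intro hcyc
    obtain ⟨g, hg⟩ := IsCyclic.exists_ofOrder_eq_natCard (α := A)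
    have h1 : orderOf g ∣ p := orderOf_dvd_of_pow_eq_one (Subtype.ext (hA.2 g g.2))
    rw [hg, hAc] at h1
    have h2 := Nat.le_of_dvd hp.pos h1
    have := hp.one_lt
    nlinarith
  have hcopA : ∀ S L : Subgroup Γ, S ≤ A → L ≤ K → (Nat.card S).Coprime (Nat.card L) := by
    intro S L hS hL
    have h1 : (p ^ 2).Coprime (Nat.card K) :=
      Nat.Coprime.pow_left 2 ((Nat.Prime.coprime_iff_not_dvd hp).2 hcop)
    rw [← hAc] at h1
    exact Nat.Coprime.coprime_dvd_left (card_dvd_of_le hS)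
      (Nat.Coprime.coprime_dvd_right (card_dvd_of_le hL) h1)
  have hsolvle : ∀ L : Subgroup Γ, L ≤ K → Group.IsSolvable L := fun L hL => isSolvable_of_le hL hKs
  have hgen : ∀ L : Subgroup Γ, L ≤ K → A ≤ normalizer (L : Set Γ) →
      (⨆ a ∈ {a : Γ | a ∈ A ∧ a ≠ 1}, L ⊓ centralizer {a}) = L := fun L hL hAL =>
    CoprimeGen.iSup_centralizer_eq hA.1 hnc hAL (hcopA A L le_rfl hL)
  -- the element `a`
  obtain ⟨a, haA, ha1, hane⟩ : ∃ a ∈ A, a ≠ 1 ∧ ⁅Q₀, T₀ ⊓ centralizer {a}⁆ ≠ ⊥ := by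
    by_contra hcon
    push Not at hcon
    apply hne
    rw [commutator_comm, commutator_eq_bot_iff_le_centralizer, ← hgen T₀ hT₀K hAT₀]
    refine iSup₂_le fun a ha => ?_
    rw [← commutator_eq_bot_iff_le_centralizer, commutator_comm]
    exact hcon a ha.1 ha.2
  have hcentA : ∀ c ∈ A, A ≤ normalizer ((centralizer {c} : Subgroup Γ) : Set Γ) := by
    intro c hc
    rw [le_normalizer_iff]
    intro g hg x hx
    rw [mem_centralizer_singleton_iff] at hx ⊢
    have h1 : Commute g c := hAab g hg c hc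
    have h2 : Commute x c := hx
    exact (h1.mul_left h2).mul_left h1.inv_left
  have hinfA : ∀ c ∈ A, ∀ L : Subgroup Γ, A ≤ normalizer (L : Set Γ) →
      A ≤ normalizer ((L ⊓ centralizer {c} : Subgroup Γ) : Set Γ) := by
    intro c hc L hL
    rw [le_normalizer_iff]
    intro g hg x hx
    exact ⟨(mem_normalizer_iff.mp (hL hg) x).mp hx.1,
      (mem_normalizer_iff.mp (hcentA c hc hg) x).mp hx.2⟩
  set T : Subgroup Γ := T₀ ⊓ centralizer {a} with hT
  have hTp : IsPGroup t T := hT₀.to_le inf_le_left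
  have hTK : T ≤ K := inf_le_left.trans hT₀K
  have hAT : A ≤ normalizer (T : Set Γ) := hinfA a haA T₀ hAT₀
  have hTa : ∀ x ∈ T, Commute x a := fun x hx => mem_centralizer_singleton_iff.1 (mem_inf.1 hx).2
  -- minimal `Q`
  obtain ⟨Q, hQmin⟩ := (Set.toFinite {Q : Subgroup Γ | Q ≤ Q₀ ∧ A ≤ normalizer (Q : Set Γ) ∧
    T ≤ normalizer (Q : Set Γ) ∧ ⁅Q, T⁆ ≠ ⊥}).exists_minimal
      ⟨Q₀, le_rfl, hAQ₀, hTK.trans hKQ₀, hane⟩
  obtain ⟨hQQ₀, hAQ, hTQ, hQTne⟩ := hQmin.prop
  have hmin : ∀ R : Subgroup Γ, R < Q → A ≤ normalizer (R : Set Γ) → T ≤ normalizer (R : Set Γ) →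
      ⁅R, T⁆ = ⊥ := by
    intro R hR hAR hTR
    by_contra h
    have h1 := hQmin.2 (y := R) ⟨hR.le.trans hQQ₀, hAR, hTR, h⟩ hR.le
    exact hR.not_ge h1
  have hQp : IsPGroup q Q := hQ₀.to_le hQQ₀
  have hQK : Q ≤ K := hQQ₀.trans hQ₀K
  have hcopTQ : ∀ S L : Subgroup Γ, S ≤ T → L ≤ Q → (Nat.card S).Coprime (Nat.card L) := by
    intro S L hS hL
    exact IsPGroup.coprime_card_of_ne t q hqt.symm _ _ (hTp.to_le hS) (hQp.to_le hL)
  have hQT : ⁅Q, T⁆ = Q := by
    have hle : ⁅Q, T⁆ ≤ Q := le_normalizer_iff_commutator_le_left.mp hTQ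
    by_contra hneq
    have hlt : ⁅Q, T⁆ < Q := lt_of_le_of_ne hle hneq
    have h1 := hmin _ hlt (Lib.H32PSolv.le_normalizer_commutator hAQ hAT)
      (normalizer_commutator_ge_right Q T)
    exact hQTne (commutator_eq_bot_of_commutator_commutator hTQ (hcopTQ T Q le_rfl le_rfl)
      (Or.inr (hsolvle Q hQK)) h1)
  have hQne : Q ≠ ⊥ := by
    rintro rfl
    exact hQTne (commutator_bot_left _)
  -- `C_K(⟨a,b⟩) = 1`
  have hfix2 : ∀ c ∈ A, c ≠ 1 → ∀ b ∈ A, b ∉ zpowers c → ∀ x ∈ K, Commute x c → Commute x b →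
      x = 1 := by
    intro c hc hc1 b hb hbc x hx h1 h2
    have h3 : A ≤ centralizer {x} := le_of_rank_two hp hAc hc (hA.2 c hc) hc1 hb hbc
      (mem_centralizer_singleton_iff.2 h1.symm) (mem_centralizer_singleton_iff.2 h2.symm)
    have h4 : x ∈ K ⊓ centralizer (A : Set Γ) := by
      refine ⟨hx, ?_⟩
      change x ∈ centralizer (A : Set Γ)
      rw [mem_centralizer_iff]
      intro g hg
      exact mem_centralizer_singleton_iff.1 (h3 hg)
    rw [hfix, mem_bot] at h4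
    exact h4
  -- complement elements
  have hex : ∀ c ∈ A, c ≠ 1 → ∃ b ∈ A, b ∉ zpowers c := by
    intro c hc hc1
    by_contra hcon
    push Not at hcon
    have h1 : A ≤ zpowers c := hcon
    have h2 := card_le_of_le h1
    rw [hAc, Nat.card_zpowers, orderOf_eq_prime (hA.2 c hc) hc1] at h2
    have := hp.one_lt
    nlinarith
  have hnilp : ∀ c ∈ A, c ≠ 1 → Group.IsNilpotent (K ⊓ centralizer {c} : Subgroup Γ) := by
    intro c hc hc1
    obtain ⟨b, hb, hbc⟩ := hex c hc hc1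
    have hb1 : b ≠ 1 := by rintro rfl; exact hbc (one_mem _)
    refine Lib.SolvFPF.isNilpotent_of_normalizer (R := zpowers b) (hsolvle _ inf_le_left) ?_ ?_ ?_
    · rw [zpowers_le]
      exact hinfA c hc K hAK hb
    · rw [Nat.card_zpowers, orderOf_eq_prime (hA.2 b hb) hb1]
      exact hp
    · rw [eq_bot_iff]
      intro x hx
      rw [mem_bot]
      refine hfix2 c hc hc1 b hb hbc x hx.1.1 (mem_centralizer_singleton_iff.1 hx.1.2) ?_
      exact (mem_centralizer_iff.1 hx.2 b (mem_zpowers b)).symm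
  -- `T` centralizes `C_Q(a)`
  have hTC : ∀ x ∈ T, ∀ y ∈ Q, Commute y a → Commute x y := by
    intro x hx y hy hya
    refine Lib.H23Nilp.commute_of_coprime_of_mem (hnilp a haA ha1)
      ⟨hTK hx, mem_centralizer_singleton_iff.2 (hTa x hx)⟩
      ⟨hQK hy, mem_centralizer_singleton_iff.2 hya⟩ ?_
    have h1 := hcopTQ (zpowers x) (zpowers y) (zpowers_le.2 hx) (zpowers_le.2 hy)
    rwa [Nat.card_zpowers, Nat.card_zpowers] at h1
  -- the center of `Q`
  set Z : Subgroup Γ := Q ⊓ centralizer (Q : Set Γ) with hZ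
  have hZQ : Z ≤ Q := inf_le_left
  have hZc : ∀ z ∈ Z, ∀ y ∈ Q, Commute y z := fun z hz y hy => mem_centralizer_iff.1 hz.2 y hy
  have hNZ : ∀ S : Subgroup Γ, S ≤ normalizer (Q : Set Γ) → S ≤ normalizer (Z : Set Γ) := by
    intro S hS
    rw [le_normalizer_iff]
    intro g hg z hz
    refine ⟨(mem_normalizer_iff.mp (hS hg) z).mp hz.1, ?_⟩
    change g * z * g⁻¹ ∈ centralizer (Q : Set Γ)
    rw [mem_centralizer_iff]
    intro y hy
    have h1 : g⁻¹ * y * g ∈ Q := conj_mem_of_normalizer (hS hg) hy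
    have h2 := (hZc z hz _ h1).eq
    calc y * (g * z * g⁻¹) = g * ((g⁻¹ * y * g) * z) * g⁻¹ := by group
      _ = g * (z * (g⁻¹ * y * g)) * g⁻¹ := by rw [h2]
      _ = g * z * g⁻¹ * y := by group
  have hAZ := hNZ A hAQ
  have hTZ := hNZ T hTQ
  have hD : ⁅Q, Q⁆ ≤ Z := by
    have hlt : ⁅Q, Q⁆ < Q := by
      have hs := hsolvle Q hQK
      have hnt : Nontrivial Q := (nontrivial_iff_ne_bot Q).2 hQne
      have h1 : commutator Q < ⊤ := Group.IsSolvable.commutator_lt_top_of_nontrivial Q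
      refine lt_of_le_of_ne (le_normalizer_iff_commutator_le_left.mp le_normalizer) ?_
      intro h2
      apply h1.ne
      rw [← Q.map_subtype_commutator] at h2
      have h3 : (commutator Q).map Q.subtype = (⊤ : Subgroup Q).map Q.subtype := by
        rw [h2, ← MonoidHom.range_eq_map, range_subtype]
      exact Subgroup.map_injective Q.subtype_injective h3
    have h1 := hmin _ hlt (Lib.H32PSolv.le_normalizer_commutator hAQ hAQ)
      (Lib.H32PSolv.le_normalizer_commutator hTQ hTQ)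
    rw [commutator_comm, commutator_eq_bot_iff_le_centralizer] at h1
    have h2 := le_centralizer_of_commutator_eq hQT
      (Lib.H32PSolv.le_normalizer_commutator le_normalizer le_normalizer) h1
    refine le_inf hlt.le ?_
    rw [le_centralizer_iff]
    exact h2
  have hZK : Z ≤ K := hZQ.trans hQK
  have hZne : ∃ z ∈ Z, z ≠ 1 := by
    have hnt : Nontrivial Q := (nontrivial_iff_ne_bot Q).2 hQne
    have h3 := hQp.center_nontrivial
    obtain ⟨z, hz⟩ := exists_ne (1 : center Q)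
    refine ⟨((z : Q) : Γ), ⟨(z : Q).2, ?_⟩, fun h => hz (Subtype.ext (Subtype.ext h))⟩
    change ((z : Q) : Γ) ∈ centralizer (Q : Set Γ)
    rw [mem_centralizer_iff]
    intro y hy
    exact congrArg (Subtype.val : Q → Γ) ((mem_center_iff.1 z.2) ⟨y, hy⟩)
  have hcardk : ∀ L : Subgroup Γ, L ≤ Q → (Nat.card L : k) ≠ 0 := by
    intro L hL h
    obtain ⟨m, hm⟩ := IsPGroup.iff_card.1 (hQp.to_le hL)
    rw [hm, Nat.cast_pow] at h
    exact pow_ne_zero m hqk h
  have hpowcard : ∀ L : Subgroup Γ, ∀ x ∈ L, x ^ Nat.card L = 1 := by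
    intro L x hx
    have h1 : (⟨x, hx⟩ : L) ^ Nat.card L = 1 := pow_card_eq_one'
    exact congrArg (Subtype.val : L → Γ) h1
  -- a nontrivial weight of `Z`
  obtain ⟨v, χ, hv0, hv, z₀, hz₀, hχz₀⟩ : ∃ (v : W) (χ : Γ → k), v ≠ 0 ∧ IsWt H Z χ v ∧
      ∃ z ∈ Z, χ z ≠ 1 := by
    by_contra hcon
    push Not at hcon
    obtain ⟨z, hz, hz1⟩ := hZne
    apply hz1
    apply hinj z (hZK hz)
    ext w
    refine eq_on_of_weights H ⊤ Z (fun _ _ _ _ => trivial) ?_ (Nat.card Z) (hcardk Z hZQ)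
      (hpowcard Z) (H z) ?_ w trivial
    · intro x hx y hy u _
      rw [← Module.End.mul_apply, ← Module.End.mul_apply, ← map_mul, ← map_mul,
        (hZc y hy x (hZQ hx)).eq]
    · intro v _ χ hv0 hv
      rw [hv z hz, hcon v χ hv0 hv z hz, one_smul]
  -- existence of stabilizing elements
  have hexc : ∀ (χ' : Γ → k) (v' : W), v' ≠ 0 → IsWt H Z χ' v' → ∃ c ∈ A, c ≠ 1 ∧ c ∈ stab Z χ' := by
    intro χ' v' hv'0 hv'
    by_contra hcon
    push Not at hcon
    have h1 := sum_stab_eq_zero H hAZ hv' (hsum v')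
    have h2 : (Finset.univ.filter fun a' : A => (a' : Γ) ∈ stab Z χ') = {1} := by
      ext a'
      simp only [Finset.mem_filter, Finset.mem_univ, true_and, Finset.mem_singleton]
      constructor
      · intro h
        by_contra h3
        exact hcon a' a'.2 (fun h4 => h3 (Subtype.ext h4)) h
      · rintro rfl
        exact one_mem _
    rw [h2, Finset.sum_singleton] at h1
    apply hv'0
    simpa using h1
  -- `A` does not fix nontrivial weights
  have hnA : ∀ (χ' : Γ → k) (v' : W), v' ≠ 0 → IsWt H Z χ' v' → A ≤ stab Z χ' →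
      ∀ z ∈ Z, χ' z = 1 := by
    intro χ' v' hv'0 hv' hAst
    refine eq_one_of_fixed hv' hv'0 hAst (hcopA A Z le_rfl hZK) (Or.inr (hsolvle Z hZK)) ?_
    rw [eq_bot_iff, ← hfix]
    exact inf_le_inf_right _ hZK
  -- weights fixed by `a` are fixed by `T`
  have hTfix : ∀ (χ' : Γ → k) (v' : W), v' ≠ 0 → IsWt H Z χ' v' → a ∈ stab Z χ' →
      T ≤ stab Z χ' := by
    intro χ' v' hv'0 hv' haS x hx
    refine ⟨hTZ hx, fun z hz => ?_⟩
    have haN : zpowers a ≤ normalizer (Z : Set Γ) := zpowers_le.2 (hAZ haA)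
    obtain ⟨u, hu, c, hc, rfl⟩ := exists_eq_mul_of_mem haN
      (hcopA _ Z (zpowers_le.2 haA) hZK) (Or.inr (hsolvle Z hZK)) hz
    have hcZ : c ∈ Z := hc.1
    have hca : Commute c a := (mem_centralizer_iff.1 hc.2 a (mem_zpowers a)).symm
    have hxc : Commute x c := hTC x hx c (hZQ hcZ) hca
    have hle := commutator_le_kerWt hv' hv'0 (zpowers_le.2 haS)
    have huZ : u ∈ Z := (hle hu).1
    have h1 : x⁻¹ * (u * c) * x = (x⁻¹ * u * x) * c := by
      have : c * x = x * c := hxc.symm.eq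
      calc x⁻¹ * (u * c) * x = x⁻¹ * u * (c * x) := by group
        _ = x⁻¹ * u * (x * c) := by rw [this]
        _ = _ := by group
    have hxN : x ∈ normalizer ((⁅Z, zpowers a⁆ : Subgroup Γ) : Set Γ) := by
      apply Lib.H32PSolv.le_normalizer_commutator (K := zpowers x)
        (zpowers_le.2 (hTZ hx)) _ (mem_zpowers x)
      rw [zpowers_le, mem_normalizer_iff_conj_smul]
      ext y
      rw [mem_conj_smul]
      constructor
      · intro hy
        have h5 : Commute x (x⁻¹ * y * x) := by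
          obtain ⟨n, hn⟩ := mem_zpowers_iff.1 hy
          rw [← hn]
          exact (hTa x hx).zpow_right n
        have h6 : x⁻¹ * y * x = y := by
          have := h5.eq
          calc x⁻¹ * y * x = x * (x⁻¹ * y * x) * x⁻¹ := by rw [this]; group
            _ = y := by group
        rwa [h6] at hy
      · intro hy
        have h5 : Commute x y := by
          obtain ⟨n, hn⟩ := mem_zpowers_iff.1 hy
          rw [← hn]
          exact (hTa x hx).zpow_right n
        have h6 : x⁻¹ * y * x = y := by rw [mul_assoc, ← h5.eq, inv_mul_cancel_left]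
        rwa [h6]
    have h2 : x⁻¹ * u * x ∈ ⁅Z, zpowers a⁆ := conj_mem_of_normalizer hxN hu
    rw [h1, isWt_mul hv' hv'0 (hle h2).1 hcZ, (hle h2).2, isWt_mul hv' hv'0 huZ hcZ, (hle hu).2]
  have hAnot : ¬ A ≤ stab Z χ := fun h => hχz₀ (hnA χ v hv0 hv h z₀ hz₀)
  have hne0 : ∀ x : Γ, H x v ≠ 0 := fun x => ne_zero_of_H hv0 x
  have htw : ∀ x ∈ T, IsWt H Z (tw x χ) (H x v) := fun x hx => isWt_tw H hv (hTZ hx)
  have hAnot' : ∀ x ∈ T, ¬ A ≤ stab Z (tw x χ) := by
    intro x hx h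
    have h1 := hnA _ _ (hne0 x) (htw x hx) h (x * z₀ * x⁻¹)
      ((mem_normalizer_iff.mp (hTZ hx) z₀).mp hz₀)
    rw [tw_apply] at h1
    apply hχz₀
    rw [← h1]
    congr 1
    group
  -- the element `b`
  obtain ⟨b, hbA, hb1, hbS⟩ := hexc χ v hv0 hv
  have hbp : b ^ p = 1 := hA.2 b hbA
  have hstar : ∀ x ∈ T, b ∈ stab Z (tw x χ) := by
    intro x hx
    rw [mem_stab_tw (hTZ hx)]
    by_cases haS : a ∈ stab Z χ
    · have hxS := hTfix χ v hv0 hv haS hx
      exact mul_mem (mul_mem (inv_mem hxS) hbS) hxS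
    · obtain ⟨c, hcA, hc1, hcS⟩ := hexc _ _ (hne0 x) (htw x hx)
      rw [mem_stab_tw (hTZ hx)] at hcS
      have hbZ : b ∉ zpowers a := by
        intro h
        exact haS ((zpowers_le.2 hbS) (gen_of_mem hp (hA.2 a haA) h hb1))
      have haZb : a ∉ zpowers b := fun h => haS ((zpowers_le.2 hbS) h)
      have hsup : A ≤ zpowers b ⊔ zpowers a := le_of_rank_two hp hAc hbA hbp hb1 haA haZb
        (le_sup_left (a := zpowers b) (mem_zpowers b)) (le_sup_right (b := zpowers a) (mem_zpowers a))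
      have hnorm : zpowers a ≤ normalizer ((zpowers b : Subgroup Γ) : Set Γ) := by
        rw [zpowers_le, mem_normalizer_iff_conj_smul]
        ext y
        rw [mem_conj_smul]
        have h5 : ∀ y ∈ zpowers b, Commute a y := by
          intro y hy
          obtain ⟨n, hn⟩ := mem_zpowers_iff.1 hy
          rw [← hn]
          exact (show Commute a b from hAab a haA b hbA).zpow_right n
        constructor
        · intro hy
          have h6 := (h5 _ hy).eq
          have h7 : a⁻¹ * y * a = y := by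
            calc a⁻¹ * y * a = a * (a⁻¹ * y * a) * a⁻¹ := by rw [h6]; group
              _ = y := by group
          rwa [h7] at hy
        · intro hy
          have h7 : a⁻¹ * y * a = y := by rw [mul_assoc, ← (h5 y hy).eq, inv_mul_cancel_left]
          rwa [h7]
      have hc' := hsup hcA
      rw [mem_sup_of_le_normalizer hnorm] at hc'
      obtain ⟨y, hy, z, hz, hyz⟩ := hc'
      have hxz : Commute x z := by
        obtain ⟨n, hn⟩ := mem_zpowers_iff.1 hz
        rw [← hn]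
        exact (hTa x hx).zpow_right n
      have hyA : y ∈ A := (zpowers_le.2 hbA) hy
      have hyS : y ∈ stab Z χ := (zpowers_le.2 hbS) hy
      set τ := y⁻¹ * x⁻¹ * y * x with hτ
      have hτT : τ ∈ T := mul_mem (conj_mem_of_normalizer (hAT hyA) (inv_mem hx)) hx
      have hτz : τ * z ∈ stab Z χ := by
        have h6 : τ * z = y⁻¹ * (x⁻¹ * c * x) := by
          rw [hτ, ← hyz]
          have := hxz.eq
          calc y⁻¹ * x⁻¹ * y * x * z = y⁻¹ * x⁻¹ * y * (x * z) := by group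
            _ = y⁻¹ * x⁻¹ * y * (z * x) := by rw [this]
            _ = _ := by group
        rw [h6]
        exact mul_mem (inv_mem hyS) hcS
      have hτz' : Commute τ z := by
        obtain ⟨n, hn⟩ := mem_zpowers_iff.1 hz
        rw [← hn]
        exact (hTa τ hτT).zpow_right n
      have hz1 : z = 1 := by
        by_contra hz1
        have h7 : z ^ Nat.card T ∈ stab Z χ := by
          have h8 := pow_mem hτz (Nat.card T)
          rwa [hτz'.mul_pow, hpowcard T τ hτT, one_mul] at h8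
        have hzp : z ^ p = 1 := hA.2 z ((zpowers_le.2 haA) hz)
        have h9 : z ^ Nat.card T ≠ 1 := by
          intro h10
          apply hz1
          have h11 := pow_gcd_eq_one.mpr ⟨hzp, h10⟩
          have h12 : p.gcd (Nat.card T) = 1 := by
            have := hcopA (zpowers a) T (zpowers_le.2 haA) hTK
            rwa [Nat.card_zpowers, orderOf_eq_prime (hA.2 a haA) ha1] at this
          rwa [h12, pow_one] at h11
        have h10 : z ∈ stab Z χ := (zpowers_le.2 h7) (gen_of_mem hp hzp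
          (pow_mem (mem_zpowers z) _) h9)
        exact haS ((zpowers_le.2 h10) (gen_of_mem hp (hA.2 a haA) hz hz1))
      rw [hz1, mul_one] at hyz
      rw [← hyz] at hcS hc1
      have hby : b ∈ zpowers y := gen_of_mem hp hbp hy hc1
      have h13 : zpowers (x⁻¹ * y * x) ≤ stab Z χ := zpowers_le.2 hcS
      apply h13
      obtain ⟨n, hn⟩ := mem_zpowers_iff.1 hby
      refine mem_zpowers_iff.2 ⟨n, ?_⟩
      rw [← hn]
      have : x⁻¹ * y * x = x⁻¹ * y * (x⁻¹)⁻¹ := by rw [inv_inv]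
      rw [this, conj_zpow, inv_inv]
  have hAst : ∀ x ∈ T, ∀ c ∈ A, c ∈ stab Z (tw x χ) → c ∈ zpowers b := by
    intro x hx c hc hcS
    by_contra hcb
    exact hAnot' x hx (le_of_rank_two hp hAc hbA hbp hb1 hc hcb (hstar x hx) hcS)
  have hbo : orderOf b = p := orderOf_eq_prime hbp hb1
  -- the sum over `⟨b⟩` vanishes
  have hsumb : ∀ x ∈ T, ∀ w' : W, IsWt H Z (tw x χ) w' →
      ∑ i ∈ Finset.range p, H (b ^ i) w' = 0 := by
    intro x hx w' hw'
    rw [← sum_stab_eq_zero H hAZ hw' (hsum w')]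
    refine Finset.sum_bij (fun i _ => (⟨b ^ i, pow_mem hbA i⟩ : A)) ?_ ?_ ?_ ?_
    · intro i _
      rw [Finset.mem_filter]
      exact ⟨Finset.mem_univ _, pow_mem (hstar x hx) i⟩
    · intro i hi j hj hij
      rw [Finset.mem_range] at hi hj
      have h1 : b ^ i = b ^ j := congrArg (Subtype.val : A → Γ) hij
      rw [← hbo] at hi hj
      exact pow_injOn_Iio_orderOf hi hj h1
    · intro c hc
      rw [Finset.mem_filter] at hc
      have h1 := hAst x hx c c.2 hc.2
      rw [← mem_powers_iff_mem_zpowers, mem_powers_iff_mem_range_orderOf, Finset.mem_image] at h1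
      obtain ⟨i, hi, hic⟩ := h1
      rw [hbo] at hi
      exact ⟨i, hi, Subtype.ext hic⟩
    · intro i _
      rfl
  have hbZ : zpowers b ≤ normalizer (Z : Set Γ) := zpowers_le.2 (hAZ hbA)
  have hwZ : ∀ (x : Γ) (y : Γ) (w' : W), y ∈ Q → IsWt H Z (tw x χ) w' →
      IsWt H Z (tw x χ) (H y w') := by
    intro x y w' hy hw' z hz
    rw [← Module.End.mul_apply, ← map_mul, ← (hZc z hz y hy).eq, map_mul, Module.End.mul_apply,
      hw' z hz, map_smul]
  -- the main local computation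
  have hloc : ∀ x ∈ T, ∀ c ∈ A, c ∉ zpowers b → ∀ u ∈ Q, Commute u c → ∀ w' : W,
      IsWt H Z (tw x χ) w' → H (u⁻¹ * (b⁻¹ * u * b)) w' = w' := by
    intro x hx c hcA hcb u hu huc w' hw'
    set L : Subgroup Γ := Q ⊓ centralizer {c} with hL
    have hLQ : L ≤ Q := inf_le_left
    have hAL : A ≤ normalizer (L : Set Γ) := hinfA c hcA Q hAQ
    -- the weight is trivial on `C_Z(c)`
    have htriv : ∀ w₁ : W, IsWt H Z (tw x χ) w₁ → ∀ z ∈ Z, Commute z c → H z w₁ = w₁ := by
      intro w₁ hw₁ z hz hzc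
      by_cases hw0 : w₁ = 0
      · rw [hw0, map_zero]
      have h1 : IsWt H (Z ⊓ centralizer {c}) (tw x χ) w₁ := fun y hy => hw₁ y hy.1
      have hst : zpowers b ≤ stab (Z ⊓ centralizer {c}) (tw x χ) := by
        intro y hy
        refine ⟨(zpowers_le.2 (hinfA c hcA Z hAZ hbA)) hy, fun y' hy' => ?_⟩
        exact ((zpowers_le.2 (hstar x hx)) hy).2 y' hy'.1
      have h2 := eq_one_of_fixed h1 hw0 hst
        (hcopA _ _ (zpowers_le.2 hbA) (inf_le_left.trans hZK))
        (Or.inr (hsolvle _ (inf_le_left.trans hZK))) (by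
          rw [eq_bot_iff]
          intro y hy
          rw [mem_bot]
          refine hfix2 b hbA hb1 c hcA hcb y (hZK hy.1.1) ?_ ?_
          · exact (mem_centralizer_iff.1 hy.2 b (mem_zpowers b)).symm
          · exact mem_centralizer_singleton_iff.1 hy.1.2) z
        ⟨hz, mem_centralizer_singleton_iff.2 hzc⟩
      rw [hw₁ z hz, h2, one_smul]
    have hLcomm : ∀ y ∈ L, ∀ y' ∈ L, ∀ u' ∈ wtSub H Z (tw x χ), H y (H y' u') = H y' (H y u') := by
      intro y hy y' hy' u' hu'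
      have h1 : (y' * y)⁻¹ * (y * y') ∈ Z := by
        apply hD
        have : (y' * y)⁻¹ * (y * y') = ⁅y⁻¹, y'⁻¹⁆ := by rw [commutatorElement_def]; group
        rw [this]
        exact commutator_mem_commutator (inv_mem hy.1) (inv_mem hy'.1)
      have h2 : Commute ((y' * y)⁻¹ * (y * y')) c := by
        have e1 : Commute y c := mem_centralizer_singleton_iff.1 hy.2
        have e2 : Commute y' c := mem_centralizer_singleton_iff.1 hy'.2
        exact ((e2.mul_left e1).inv_left).mul_left (e1.mul_left e2)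
      have h3 := htriv u' hu' _ h1 h2
      rw [← Module.End.mul_apply, ← Module.End.mul_apply, ← map_mul, ← map_mul]
      have h4 : y * y' = (y' * y) * ((y' * y)⁻¹ * (y * y')) := by group
      rw [h4, map_mul, Module.End.mul_apply, h3]
    refine eq_on_of_weights H (wtSub H Z (tw x χ)) L (fun y hy u' hu' => hwZ x y u' hy.1 hu')
      hLcomm (Nat.card L) (hcardk L hLQ) (hpowcard L) _ ?_ w' hw'
    intro v' hv'U ν hv'0 hv'
    have h1 := fixed_of_prime H (hAL hbA) hp hbp hv' hv'0 (hsumb x hx v' hv'U)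
    have huL : u ∈ L := ⟨hu, mem_centralizer_singleton_iff.2 huc⟩
    have huL' : b⁻¹ * u * b ∈ L := conj_mem_of_normalizer (hAL hbA) huL
    rw [map_mul, Module.End.mul_apply, hv' _ huL', h1.2 u huL, map_smul, hv' _ (inv_mem huL),
      smul_smul, isWt_inv hv' hv'0 huL, one_smul]
  -- the subgroup `Q_Λ`
  let QL : Subgroup Γ :=
    { carrier := {y | y ∈ Q ∧ ∀ x ∈ T, ∀ w' : W, IsWt H Z (tw x χ) w' → H y w' = w'}
      one_mem' := ⟨one_mem _, fun x _ w' _ => by rw [map_one]; rfl⟩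
      mul_mem' := by
        rintro y y' ⟨hy, hy'⟩ ⟨hz, hz'⟩
        refine ⟨mul_mem hy hz, fun x hx w' hw' => ?_⟩
        rw [map_mul, Module.End.mul_apply, hz' x hx w' hw', hy' x hx w' hw']
      inv_mem' := by
        rintro y ⟨hy, hy'⟩
        refine ⟨inv_mem hy, fun x hx w' hw' => ?_⟩
        have h1 := hy' x hx w' hw'
        nth_rewrite 1 [← h1]
        rw [← Module.End.mul_apply, ← map_mul, inv_mul_cancel, map_one]
        rfl }
  have hQLQ : QL ≤ Q := fun y hy => hy.1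
  have hQLn : ∀ g : Γ, g ∈ normalizer (Q : Set Γ) →
      (∀ x ∈ T, ∀ w' : W, IsWt H Z (tw x χ) w' → ∃ x' ∈ T, IsWt H Z (tw x' χ) (H g⁻¹ w')) →
      ∀ y ∈ QL, g * y * g⁻¹ ∈ QL := by
    intro g hg hgw y hy
    refine ⟨(mem_normalizer_iff.mp hg y).mp hy.1, fun x hx w' hw' => ?_⟩
    obtain ⟨x', hx', hw''⟩ := hgw x hx w' hw'
    rw [map_mul, Module.End.mul_apply, map_mul, Module.End.mul_apply, hy.2 x' hx' _ hw'',
      ← Module.End.mul_apply, ← map_mul, mul_inv_cancel, map_one]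
    rfl
  have hQQL : ∀ g ∈ Q, ∀ y ∈ QL, g * y * g⁻¹ ∈ QL := by
    intro g hg
    exact hQLn g (le_normalizer hg) (fun x hx w' hw' => ⟨x, hx, hwZ x _ w' (inv_mem hg) hw'⟩)
  have hTQL : ∀ g ∈ T, ∀ y ∈ QL, g * y * g⁻¹ ∈ QL := by
    intro g hg
    refine hQLn g (hTQ hg) (fun x hx w' hw' => ⟨g⁻¹ * x, mul_mem (inv_mem hg) hx, ?_⟩)
    have h1 := isWt_tw H hw' (inv_mem (hTZ hg))
    intro z hz
    rw [h1 z hz, tw_apply, tw_apply, tw_apply]
    congr 2
    group
  have hbQL : ∀ y ∈ QL, b * y * b⁻¹ ∈ QL := by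
    refine hQLn b (hAQ hbA) (fun x hx w' hw' => ⟨x, hx, ?_⟩)
    have h1 := isWt_tw H hw' (inv_mem (hAZ hbA))
    intro z hz
    rw [h1 z hz, tw_apply]
    have h2 := (inv_mem (hstar x hx)).2 z hz
    rw [h2]
  -- `b` is trivial on `Q / Q_Λ`
  let P : Subgroup Γ :=
    { carrier := {u | u ∈ Q ∧ u⁻¹ * (b⁻¹ * u * b) ∈ QL}
      one_mem' := ⟨one_mem _, by
        have : (1 : Γ)⁻¹ * (b⁻¹ * 1 * b) = 1 := by group
        rw [this]; exact one_mem _⟩
      mul_mem' := by
        rintro y y' ⟨hy, hy'⟩ ⟨hz, hz'⟩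
        refine ⟨mul_mem hy hz, ?_⟩
        have h1 := hQQL _ (inv_mem hz) _ hy'
        have : (y * y')⁻¹ * (b⁻¹ * (y * y') * b) =
          (y'⁻¹ * (y⁻¹ * (b⁻¹ * y * b)) * y'⁻¹⁻¹) * (y'⁻¹ * (b⁻¹ * y' * b)) := by group
        rw [this]
        exact mul_mem h1 hz'
      inv_mem' := by
        rintro y ⟨hy, hy'⟩
        refine ⟨inv_mem hy, ?_⟩
        have h1 := hQQL _ hy _ (inv_mem hy')
        have : y⁻¹⁻¹ * (b⁻¹ * y⁻¹ * b) = y * (y⁻¹ * (b⁻¹ * y * b))⁻¹ * y⁻¹ := by group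
        rw [this]
        exact h1 }
  have hPQ : ∀ u ∈ Q, u⁻¹ * (b⁻¹ * u * b) ∈ QL := by
    have h1 : Q ≤ P := by
      conv_lhs => rw [← hgen Q hQK hAQ]
      refine iSup₂_le fun c hc u hu => ⟨hu.1, ?_⟩
      have huc : Commute u c := mem_centralizer_singleton_iff.1 hu.2
      by_cases hcb : c ∈ zpowers b
      · have hbc := gen_of_mem hp hbp hcb hc.2
        have h2 : Commute u b := by
          obtain ⟨n, hn⟩ := mem_zpowers_iff.1 hbc
          rw [← hn]
          exact huc.zpow_right n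
        have h3 : u⁻¹ * (b⁻¹ * u * b) = 1 := by
          rw [mul_assoc, h2.eq]; group
        rw [h3]
        exact one_mem _
      · refine ⟨mul_mem (inv_mem hu.1) (conj_mem_of_normalizer (hAQ hbA) hu.1), ?_⟩
        intro x hx w' hw'
        exact hloc x hx c hc.1 hcb u hu.1 huc w' hw'
    intro u hu
    exact (h1 hu).2
  let N' : Subgroup Γ :=
    { carrier := {x | x ∈ normalizer (Q : Set Γ) ∧ ∀ u ∈ Q, u⁻¹ * (x * u * x⁻¹) ∈ QL}
      one_mem' := ⟨one_mem _, fun u _ => by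
        have : u⁻¹ * (1 * u * 1⁻¹) = 1 := by group
        rw [this]; exact one_mem _⟩
      mul_mem' := by
        rintro x y ⟨hx, hx'⟩ ⟨hy, hy'⟩
        refine ⟨mul_mem hx hy, fun u hu => ?_⟩
        have h1 := hy' u hu
        have h2 := hx' _ ((mem_normalizer_iff.mp hy u).mp hu)
        have : u⁻¹ * (x * y * u * (x * y)⁻¹) = (u⁻¹ * (y * u * y⁻¹)) *
          ((y * u * y⁻¹)⁻¹ * (x * (y * u * y⁻¹) * x⁻¹)) := by group
        rw [this]
        exact mul_mem h1 h2
      inv_mem' := by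
        rintro x ⟨hx, hx'⟩
        refine ⟨inv_mem hx, fun u hu => ?_⟩
        have h2 := hx' _ ((mem_normalizer_iff.mp (inv_mem hx) u).mp hu)
        have h3 := inv_mem h2
        have : u⁻¹ * (x⁻¹ * u * x⁻¹⁻¹) =
          ((x⁻¹ * u * x⁻¹⁻¹)⁻¹ * (x * (x⁻¹ * u * x⁻¹⁻¹) * x⁻¹))⁻¹ := by group
        rw [this]
        exact h3 }
  have hbN : b ∈ N' := by
    refine ⟨hAQ hbA, fun u hu => ?_⟩
    have h1 := hPQ _ ((mem_normalizer_iff.mp (hAQ hbA) u).mp hu)
    have h2 := inv_mem h1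
    have : u⁻¹ * (b * u * b⁻¹) = ((b * u * b⁻¹)⁻¹ * (b⁻¹ * (b * u * b⁻¹) * b))⁻¹ := by group
    rw [this]
    exact h2
  have hbN' : zpowers b ≤ N' := zpowers_le.2 hbN
  have hz₀QL : z₀ ∉ QL := by
    intro h
    have h1 := h.2 1 (one_mem _) v (by
      intro z hz
      rw [hv z hz, tw_apply]
      congr 2
      group)
    rw [hv z₀ hz₀] at h1
    apply hχz₀
    have h2 : (χ z₀ - 1) • v = 0 := by rw [sub_smul, h1, one_smul, sub_self]
    rcases smul_eq_zero.1 h2 with h3 | h3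
    · exact sub_eq_zero.1 h3
    · exact absurd h3 hv0
  apply hz₀QL
  have hfin : ∀ u ∈ Q, ∀ τ ∈ T, ⁅u, τ⁆ ∈ QL := by
    intro u hu τ hτ
    by_cases hba : b ∈ zpowers a
    · have hab := gen_of_mem hp (hA.2 a haA) hba hb1
      have hbnQL : zpowers b ≤ normalizer (QL : Set Γ) := by
        rw [zpowers_le, mem_normalizer_iff]
        intro y
        refine ⟨hbQL y, fun hy => ?_⟩
        have h1 : ∀ n : ℕ, ∀ y ∈ QL, b ^ n * y * (b ^ n)⁻¹ ∈ QL := by
          intro n
          induction n with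
          | zero => intro y hy; simpa using hy
          | succ n ih =>
            intro y hy
            have := hbQL _ (ih y hy)
            have h3 : b ^ (n + 1) * y * (b ^ (n + 1))⁻¹ = b * (b ^ n * y * (b ^ n)⁻¹) * b⁻¹ := by
              rw [pow_succ']; group
            rwa [h3]
        have h2 := h1 (p - 1) _ hy
        have h4 : b ^ (p - 1) * b = 1 := by
          rw [← pow_succ, Nat.sub_add_cancel hp.one_le, hbp]
        have h3 : b ^ (p - 1) * (b * y * b⁻¹) * (b ^ (p - 1))⁻¹ = y := by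
          calc b ^ (p - 1) * (b * y * b⁻¹) * (b ^ (p - 1))⁻¹
              = (b ^ (p - 1) * b) * y * (b ^ (p - 1) * b)⁻¹ := by group
            _ = y := by rw [h4]; group
        rwa [h3] at h2
      obtain ⟨d, hd, hud⟩ := exists_mul_mem_centralizer hbnQL
        (hcopA _ QL (zpowers_le.2 hbA) (hQLQ.trans hQK)) (Or.inr (hsolvle _ (hQLQ.trans hQK))) u
        (fun g hg => (hbN' hg).2 u hu)
      have h1 : Commute (u * d) a := (mem_centralizer_iff.1 hud a hab).symm
      have h2 : Commute τ (u * d) := hTC τ hτ (u * d) (mul_mem hu hd.1) h1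
      have h3 : ⁅u, τ⁆ = (u * d) * (d⁻¹ * (τ * d * τ⁻¹)) * (u * d)⁻¹ := by
        have h4 := h2.inv_right.eq
        calc ⁅u, τ⁆ = (u * d) * d⁻¹ * τ * d * (u * d)⁻¹ * τ⁻¹ := by
              rw [commutatorElement_def]; group
          _ = (u * d) * d⁻¹ * τ * d * τ⁻¹ * (τ * (u * d)⁻¹) * τ⁻¹ := by group
          _ = (u * d) * d⁻¹ * τ * d * τ⁻¹ * ((u * d)⁻¹ * τ) * τ⁻¹ := by rw [h4]
          _ = _ := by group
      rw [h3]
      exact hQQL _ (mul_mem hu hd.1) _ (mul_mem (inv_mem hd) (hTQL τ hτ d hd))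
    · have h1 : T ⊓ centralizer (zpowers b : Set Γ) = ⊥ := by
        rw [eq_bot_iff]
        intro x hx
        rw [mem_bot]
        exact hfix2 a haA ha1 b hbA hba x (hTK hx.1) (hTa x hx.1)
          (mem_centralizer_iff.1 hx.2 b (mem_zpowers b)).symm
      have h2 := commutator_sup_centralizer (A := zpowers b) (K := T) (zpowers_le.2 (hAT hbA))
        (hcopA _ _ (zpowers_le.2 hbA) hTK) (Or.inr (hsolvle T hTK))
      rw [h1, sup_bot_eq] at h2
      have h3 : T ≤ N' := by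
        rw [← h2, commutator_le]
        intro x hx g hg
        rw [commutatorElement_def]
        refine mul_mem ?_ (inv_mem (hbN' hg))
        have hxQ : x ∈ normalizer (Q : Set Γ) := hTQ hx
        have hgN := hbN' hg
        refine ⟨mul_mem (mul_mem hxQ hgN.1) (inv_mem hxQ), fun u hu => ?_⟩
        have h4 : x⁻¹ * u * x ∈ Q := conj_mem_of_normalizer hxQ hu
        have h5 := hTQL x hx _ (hgN.2 _ h4)
        have h6 : u⁻¹ * (x * g * x⁻¹ * u * (x * g * x⁻¹)⁻¹) =
          x * ((x⁻¹ * u * x)⁻¹ * (g * (x⁻¹ * u * x) * g⁻¹)) * x⁻¹ := by group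
        rw [h6]
        exact h5
      have h4 := inv_mem (hQQL u hu _ ((h3 hτ).2 u hu))
      have h5 : ⁅u, τ⁆ = (u * (u⁻¹ * (τ * u * τ⁻¹)) * u⁻¹)⁻¹ := by
        rw [commutatorElement_def]; group
      rw [h5]
      exact h4
  have h1 : Q ≤ QL := by
    conv_lhs => rw [← hQT]
    rw [commutator_le]
    exact hfin
  exact h1 (hZQ hz₀)

end Main

end Cfsg.Agent.Lib.Ward
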