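import Cfsg.Agent.Lib.SympFix
import Cfsg.Agent.Lib.CycNum
import Cfsg.Agent.Lib.Ward

/-!
Isometries of symplectic spaces normalized by an element of prime order `q^m + 1` with a commutator
space of dimension `2m` (helper59).
-/

set_option autoImplicit false

namespace Cfsg.Agent.Lib.FermatLin

open Module Subgroup Cfsg.Agent.Lib.WielandtFix Cfsg.Agent.Lib.SympFix Cfsg.Agent.Lib.CoprimeAction
  Cfsg.Agent.Lib.CoprimeAction2 Cfsg.Agent.Lib.Ward

universe u v w

section Comm

variable {q : ℕ} [hq : Fact q.Prime] {M : Type*} [AddCommGroup M] [Module (ZMod q) M] [Finite M]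
  {k : Type*} [Field k] {G : Type*} [Group G] [Finite G]

theorem commutator_eq_bot (hc : q.Coprime (Nat.card G)) (ρ : Representation (ZMod q) G M)
    (hinj : Function.Injective ρ) {e : M → M → k} (he : IsPairing e)
    (hinv : ∀ g x y, e (ρ g x) (ρ g y) = e x y) (hnd : ∀ x, (∀ y, e x y = 1) → x = 0)
    (T : Subgroup G) (hT : ∀ x ∈ T, ∀ y ∈ T, x * y = y * x) (b : G)
    (hbT : b ∈ normalizer (T : Set G)) {β m : ℕ} (hβ : β.Prime) (hbβ : b ^ β = 1)
    (hβm : β = q ^ m + 1) (hcop : (Nat.card T).Coprime β)
    (hcod : finrank (ZMod q) M = finrank (ZMod q) (fixed ρ (zpowers b)) + 2 * m) :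
    ⁅T, zpowers b⁆ = ⊥ := by
  classical
  by_cases hb1 : b = 1
  · rw [hb1, zpowers_one_eq_bot, commutator_bot_right]
  have hEc : Nat.card (zpowers b) = β := by
    have := Fact.mk hβ
    rw [Nat.card_zpowers]; exact orderOf_eq_prime hbβ hb1
  have hEN : zpowers b ≤ normalizer (T : Set G) := zpowers_le.2 hbT
  set S := ⁅T, zpowers b⁆ with hS
  have hST : S ≤ T := le_normalizer_iff_commutator_le_left.mp hEN
  have hTc : IsMulCommutative T := isMulCommutative_iff_of_setLike.mpr hT
  have hbot := inf_commutator_eq_bot_of_abelian (A := zpowers b) (V := T) hEN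
    (by rw [hEc]; exact hcop.symm)
  have hfix : ∀ u ∈ S, Commute b u → u = 1 := by
    intro u hu hbu
    have h1 : u ∈ (T ⊓ centralizer (zpowers b : Set G)) ⊓ ⁅T, zpowers b⁆ := by
      refine ⟨⟨hST hu, ?_⟩, hu⟩
      change u ∈ centralizer (zpowers b : Set G)
      rw [mem_centralizer_iff]
      intro g hg
      obtain ⟨i, rfl⟩ := mem_zpowers_iff.1 hg
      exact (hbu.zpow_left i).eq
    rwa [hbot, mem_bot] at h1
  have hSE : ∀ e ∈ zpowers b, ∀ u ∈ S, e * u * e⁻¹ ∈ S := fun e he u hu =>
    (le_normalizer_iff.1 (normalizer_commutator_ge_right T (zpowers b))) e he u hu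
  have hgen : ∀ e ∈ zpowers b, e ≠ 1 → b ∈ zpowers e := fun e he he1 => gen_of_mem hβ hbβ he he1
  have hform := frob_linear hc ρ S (zpowers b) (by
      rw [eq_bot_iff]
      intro x hx
      rw [mem_bot]
      apply hfix x hx.1
      obtain ⟨i, rfl⟩ := mem_zpowers_iff.1 hx.2
      exact Commute.self_zpow b i) hSE (by
      intro e he' he1 u hu heu
      apply hfix u hu
      obtain ⟨i, hi⟩ := mem_zpowers_iff.1 (hgen e he' he1)
      rw [← hi]
      exact Commute.zpow_left heu i)
  rw [hEc] at hform
  have heM : Even (finrank (ZMod q) M) := he.even_finrank (q := q) hnd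
  have heSE := he.even_fixed hc ρ hinv hnd (S ⊔ zpowers b)
  have heS := he.even_fixed hc ρ hinv hnd S
  have heE := he.even_fixed hc ρ hinv hnd (zpowers b)
  have hmono : ∀ X Y : Subgroup G, X ≤ Y → fixed ρ Y ≤ fixed ρ X := fun X Y hXY v hv x hx =>
    hv x (hXY hx)
  have hle1 : finrank (ZMod q) (fixed ρ (S ⊔ zpowers b)) ≤ finrank (ZMod q) (fixed ρ S) :=
    Submodule.finrank_mono (hmono _ _ le_sup_left)
  have hle2 : finrank (ZMod q) (fixed ρ (S ⊔ zpowers b)) ≤
      finrank (ZMod q) (fixed ρ (zpowers b)) :=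
    Submodule.finrank_mono (hmono _ _ le_sup_right)
  have hle3 : finrank (ZMod q) (fixed ρ S) ≤ finrank (ZMod q) M := Submodule.finrank_le _
  set dM := finrank (ZMod q) M
  set dSE := finrank (ZMod q) (fixed ρ (S ⊔ zpowers b))
  set dS := finrank (ZMod q) (fixed ρ S)
  set dE := finrank (ZMod q) (fixed ρ (zpowers b))
  have hqm : m < q ^ m := Nat.lt_pow_self hq.out.one_lt
  have hkey : dE = dSE := by
    obtain ⟨c, hc'⟩ := Nat.exists_eq_add_of_le hle2
    by_contra hne
    have hc0 : c ≠ 0 := by
      rintro rfl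
      exact hne (by omega)
    have hceven : Even c := by
      have h1 : Even (dSE + c) := by rw [← hc']; exact heE
      exact (Nat.even_add.1 h1).1 heSE
    have hc2 : 2 ≤ c := by
      obtain ⟨r, hr⟩ := hceven
      omega
    have h2 : (β - 1) * c ≤ 2 * m := by
      have h3 : β * dE = β * dSE + β * c := by rw [hc']; ring
      have h4 : β * c = (β - 1) * c + c := by
        obtain ⟨r, hr⟩ := Nat.exists_eq_add_of_le hβ.one_lt.le
        rw [hr]
        have : 1 + r - 1 = r := by omega
        rw [this]; ring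
      omega
    have h3 : (β - 1) = q ^ m := by rw [hβm]; rfl
    rw [h3] at h2
    nlinarith
  have hdS : dS = dM := by
    rw [hkey] at hform
    omega
  have htop : fixed ρ S = ⊤ := Submodule.eq_top_of_finrank_eq hdS
  rw [eq_bot_iff]
  intro s hs
  rw [mem_bot]
  apply hinj
  rw [map_one]
  refine LinearMap.ext fun x => ?_
  have hx : x ∈ fixed ρ S := by rw [htop]; trivial
  exact hx s hs

end Comm

section Poly

open Polynomial

variable {q : ℕ} [hq : Fact q.Prime] {M : Type*} [AddCommGroup M] [Module (ZMod q) M]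
  {k : Type*} [Field k]

theorem aeval_pow (B : Module.End (ZMod q) M) (P : (ZMod q)[X]) (m : ℕ) :
    aeval (B ^ q ^ m) P = (aeval B P) ^ q ^ m := by
  induction m with
  | zero => simp
  | succ m ih =>
    rw [pow_succ, pow_mul, pow_mul, ← ih, ← map_pow, ← ZMod.expand_card, expand_aeval]

theorem pairing_smul {e : M → M → k} (he : IsPairing e) (c : ZMod q) (x y : M) :
    e (c • x) y = e x (c • y) := by
  have hsmul : ∀ (c : ZMod q) (x : M), c • x = c.val • x := by
    intro c x
    conv_lhs => rw [← ZMod.natCast_zmod_val c]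
    rw [Nat.cast_smul_eq_nsmul]
  rw [hsmul, hsmul, he.nsmul_left, he.nsmul_right]

theorem pairing_aeval {e : M → M → k} (he : IsPairing e) (B B' : Module.End (ZMod q) M)
    (hB : ∀ x y, e (B x) y = e x (B' y)) (P : (ZMod q)[X]) :
    ∀ x y, e (aeval B P x) y = e x (aeval B' P y) := by
  induction P using Polynomial.induction_on' with
  | add P Q hP hQ =>
    intro x y
    rw [map_add, map_add, LinearMap.add_apply, LinearMap.add_apply, he.add_left, he.add_right, hP,
      hQ]
  | monomial n a =>
    intro x y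
    have hpow : ∀ (n : ℕ) (x y : M), e ((B ^ n) x) y = e x ((B' ^ n) y) := by
      intro n
      induction n with
      | zero => intro x y; rfl
      | succ n ih =>
        intro x y
        rw [pow_succ', pow_succ, Module.End.mul_apply, Module.End.mul_apply, hB, ih]
    rw [aeval_monomial, aeval_monomial, Module.End.mul_apply, Module.End.mul_apply,
      Module.algebraMap_end_apply, Module.algebraMap_end_apply, pairing_smul he, hpow]
    congr 1
    rw [map_smul]

end Poly

section Cent

open Polynomial

variable {M : Type*} [AddCommGroup M] [Module (ZMod 2) M] [Finite M]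
  {k : Type*} [Field k] {G : Type*} [Group G] [Finite G]

theorem fixed_range (ρ : Representation (ZMod 2) G M)
    {e : M → M → k} (he : IsPairing e) (hinv : ∀ g x y, e (ρ g x) (ρ g y) = e x y)
    (hnd : ∀ x, (∀ y, e x y = 1) → x = 0) (b t : G) (hbt : Commute b t)
    {β m : ℕ} (hβ : β.Prime) (hbβ : b ^ β = 1) (hm : 0 < m)
    (hβm : β = 2 ^ m + 1) (hcop : (orderOf t).Coprime β)
    (hcod : finrank (ZMod 2) M = finrank (ZMod 2) (fixed ρ (zpowers b)) + 2 * m) :
    ∀ x, ρ t (ρ b x - x) = ρ b x - x := by
  classical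
  have h2f : Fact (Nat.Prime 2) := ⟨Nat.prime_two⟩
  set B : Module.End (ZMod 2) M := ρ b with hB
  set N : Submodule (ZMod 2) M := LinearMap.range (B - 1) with hN
  have hNmem : ∀ x, ρ b x - x ∈ N := fun x => ⟨x, rfl⟩
  have hker : LinearMap.ker (B - 1) = fixed ρ (zpowers b) := by
    ext x
    rw [LinearMap.mem_ker, mem_fixed]
    constructor
    · intro h
      have h1 : B x = x := sub_eq_zero.1 h
      intro g hg
      have hfin : IsOfFinOrder b := isOfFinOrder_of_finite b
      have h3 := (hfin.mem_powers_iff_mem_zpowers).2 hg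
      rw [Submonoid.mem_powers_iff] at h3
      obtain ⟨i, rfl⟩ := h3
      induction i with
      | zero => rw [pow_zero, map_one]; rfl
      | succ i ih =>
        rw [pow_succ, map_mul, Module.End.mul_apply]
        change ρ (b ^ i) (B x) = x
        rw [h1]
        exact ih (pow_mem (mem_zpowers b) i)
    · intro h
      exact sub_eq_zero.2 (h b (mem_zpowers b))
  have hNrank : finrank (ZMod 2) N = 2 * m := by
    have h1 := LinearMap.finrank_range_add_finrank_ker (B - 1)
    rw [hker] at h1
    change finrank (ZMod 2) N + _ = _ at h1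
    omega
  have hBβ : B ^ β = 1 := by rw [hB, ← map_pow, hbβ, map_one]
  -- no fixed points of `b` on `N`
  have hfree : ∀ x ∈ N, B x = x → x = 0 := by
    rintro _ ⟨y, rfl⟩ hx
    have h1 : ∀ i : ℕ, (B ^ i) ((B - 1) y) = (B - 1) y := by
      intro i
      induction i with
      | zero => rfl
      | succ i ih => rw [pow_succ, Module.End.mul_apply, hx, ih]
    have h2 : (∑ i ∈ Finset.range β, B ^ i) * (B - 1) = 0 := by
      rw [geom_sum_mul, hBβ, sub_self]
    have h3 : (∑ i ∈ Finset.range β, (B ^ i) ((B - 1) y)) = 0 := by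
      have h4 := congrArg (fun f : Module.End (ZMod 2) M => f y) h2
      simpa [LinearMap.sum_apply] using h4
    rw [Finset.sum_congr rfl fun i _ => h1 i, Finset.sum_const, Finset.card_range] at h3
    have h5 : (β : ZMod 2) = 1 := by
      rw [hβm]; push_cast
      have : (2 : ZMod 2) = 0 := rfl
      rw [this, zero_pow hm.ne', zero_add]
    rw [← Nat.cast_smul_eq_nsmul (ZMod 2), h5, one_smul] at h3
    exact h3
  -- irreducibility
  have hirr : ∀ N' : Submodule (ZMod 2) M, N' ≤ N → (∀ x ∈ N', B x ∈ N') → N' ≠ ⊥ → N' = N := by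
    intro N' hle hinv' hne
    have hpowmem : ∀ i : ℕ, ∀ x ∈ N', (B ^ i) x ∈ N' := by
      intro i
      induction i with
      | zero => intro x hx; exact hx
      | succ i ih => intro x hx; rw [pow_succ, Module.End.mul_apply]; exact ih _ (hinv' x hx)
    have hbne : b ≠ 1 := by
      rintro rfl
      apply hne
      rw [eq_bot_iff]
      intro x hx
      rw [Submodule.mem_bot]
      apply hfree x (hle hx)
      rw [hB, map_one]; rfl
    have hbf := Fact.mk hβ
    have hob : orderOf b = β := orderOf_eq_prime hbβ hbne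
    have hzinv : ∀ g ∈ zpowers b, ∀ x ∈ N', ρ g x ∈ N' := by
      intro g hg x hx
      have h3 := ((isOfFinOrder_of_finite b).mem_powers_iff_mem_zpowers).2 hg
      rw [Submonoid.mem_powers_iff] at h3
      obtain ⟨i, rfl⟩ := h3
      rw [map_pow]
      exact hpowmem i x hx
    let act : MulAction (zpowers b) N' :=
      { smul := fun g x => ⟨ρ (g : G) x, hzinv g g.2 x x.2⟩
        one_smul := by
          intro x
          apply Subtype.ext
          change ρ ((1 : zpowers b) : G) (x : M) = x
          rw [Subgroup.coe_one, map_one]; rfl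
        mul_smul := by
          intro g h x
          apply Subtype.ext
          change ρ ((g * h : zpowers b) : G) (x : M) = ρ (g : G) (ρ (h : G) x)
          rw [Subgroup.coe_mul, map_mul]; rfl }
    have hdvd := CycNum.card_dvd_sub_one (MulAction.toPermHom (zpowers b) N') (0 : N')
      (by
        intro a
        apply Subtype.ext
        change ρ (a : G) (0 : M) = 0
        rw [map_zero]) (by
        intro a ha x hx
        apply Subtype.ext
        apply hfree x (hle x.2)
        have ha1 : (a : G) ≠ 1 := fun h => ha (Subtype.ext h)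
        have h1 : b ∈ zpowers (a : G) := gen_of_mem hβ hbβ a.2 ha1
        have h3 := ((isOfFinOrder_of_finite (a : G)).mem_powers_iff_mem_zpowers).2 h1
        rw [Submonoid.mem_powers_iff] at h3
        obtain ⟨i, hi⟩ := h3
        have h4 : ρ (a : G) (x : M) = x := congrArg Subtype.val hx
        have h5 : ∀ i : ℕ, (ρ (a : G) ^ i) (x : M) = x := by
          intro i
          induction i with
          | zero => rfl
          | succ i ih => rw [pow_succ, Module.End.mul_apply, h4, ih]
        rw [hB, ← hi, map_pow]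
        exact h5 i)
    rw [Nat.card_zpowers, hob, hβm] at hdvd
    have hcard : Nat.card N' = 2 ^ finrank (ZMod 2) N' := by
      rw [Module.natCard_eq_pow_finrank (K := ZMod 2)]
      simp
    rw [hcard] at hdvd
    have h1 := CycNum.dvd_of_dvd_pow_sub_one hm hdvd
    have h2 : 0 < finrank (ZMod 2) N' := by
      rw [Module.finrank_pos_iff]
      exact Submodule.nontrivial_iff_ne_bot.2 hne
    have h3 := Nat.le_of_dvd h2 h1
    exact Submodule.eq_of_le_of_finrank_le hle (by rw [hNrank]; exact h3)
  -- a nonzero element of `N`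
  have hNne : N ≠ ⊥ := by
    intro h
    rw [h, finrank_bot] at hNrank
    omega
  obtain ⟨x₀, hx₀N, hx₀⟩ := Submodule.exists_mem_ne_zero_of_ne_bot hNne
  set τ : Module.End (ZMod 2) M := ρ t with hτ
  have hcomm : τ * B = B * τ := by
    rw [hτ, hB, ← map_mul, ← map_mul, hbt.eq]
  have hτN : ∀ x ∈ N, τ x ∈ N := by
    rintro _ ⟨y, rfl⟩
    refine ⟨τ y, ?_⟩
    have h1 : τ * (B - 1) = (B - 1) * τ := by rw [mul_sub, sub_mul, hcomm, mul_one, one_mul]
    exact (congrArg (fun f : Module.End (ZMod 2) M => f y) h1).symm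
  have hBN : ∀ x ∈ N, B x ∈ N := by
    rintro _ ⟨y, rfl⟩
    exact ⟨B y, by
      have h1 : B * (B - 1) = (B - 1) * B := by rw [mul_sub, sub_mul, mul_one, one_mul]
      exact (congrArg (fun f : Module.End (ZMod 2) M => f y) h1).symm⟩
  have hPN : ∀ (P : (ZMod 2)[X]), ∀ x ∈ N, aeval B P x ∈ N := by
    intro P
    induction P using Polynomial.induction_on' with
    | add P Q hP hQ =>
      intro x hx
      rw [map_add, LinearMap.add_apply]
      exact add_mem (hP x hx) (hQ x hx)
    | monomial n a =>
      intro x hx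
      rw [aeval_monomial, Module.End.mul_apply, Module.algebraMap_end_apply]
      apply Submodule.smul_mem
      have : ∀ n : ℕ, (B ^ n) x ∈ N := by
        intro n
        induction n with
        | zero => exact hx
        | succ n ih => rw [pow_succ', Module.End.mul_apply]; exact hBN _ ih
      exact this n
  obtain ⟨P, hP⟩ : ∃ P : (ZMod 2)[X], aeval B P x₀ = τ x₀ := by
    let ev : (ZMod 2)[X] →ₗ[ZMod 2] M :=
      (LinearMap.applyₗ x₀).comp (aeval B).toLinearMap
    have hev : ∀ P, ev P = aeval B P x₀ := fun P => rfl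
    have h1 : LinearMap.range ev = N := by
      apply hirr
      · rintro _ ⟨P, rfl⟩
        rw [hev]
        exact hPN P x₀ hx₀N
      · rintro _ ⟨P, rfl⟩
        refine ⟨X * P, ?_⟩
        rw [hev, hev, map_mul, aeval_X, Module.End.mul_apply]
      · intro h
        have h2 : x₀ ∈ LinearMap.range ev := ⟨1, by rw [hev, map_one]; rfl⟩
        rw [h, Submodule.mem_bot] at h2
        exact hx₀ h2
    have h2 : τ x₀ ∈ LinearMap.range ev := by rw [h1]; exact hτN x₀ hx₀N
    obtain ⟨P, hP⟩ := h2
    exact ⟨P, hP⟩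
  have hτP : ∀ x ∈ N, aeval B P x = τ x := by
    have h1 : N ⊓ LinearMap.ker (aeval B P - τ) = N := by
      apply hirr _ inf_le_left
      · rintro x ⟨hx1, hx2⟩
        refine ⟨hBN x hx1, ?_⟩
        rw [SetLike.mem_coe, LinearMap.mem_ker] at hx2 ⊢
        have h2 : (aeval B P - τ) * B = B * (aeval B P - τ) := by
          rw [sub_mul, mul_sub, hcomm]
          congr 1
          have h3 : aeval B P * aeval B (X : (ZMod 2)[X]) = aeval B (X : (ZMod 2)[X]) * aeval B P := by
            rw [← map_mul, ← map_mul, mul_comm]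
          rwa [aeval_X] at h3
        have h3 := congrArg (fun f : Module.End (ZMod 2) M => f x) h2
        have h4 : (aeval B P - τ) (B x) = B ((aeval B P - τ) x) := h3
        rw [h4, hx2, map_zero]
      · intro h
        have h2 : x₀ ∈ N ⊓ LinearMap.ker (aeval B P - τ) := by
          refine ⟨hx₀N, ?_⟩
          rw [SetLike.mem_coe, LinearMap.mem_ker, LinearMap.sub_apply, hP, sub_self]
        rw [h, Submodule.mem_bot] at h2
        exact hx₀ h2
    intro x hx
    rw [← h1] at hx
    have h2 := hx.2
    rw [SetLike.mem_coe, LinearMap.mem_ker, LinearMap.sub_apply] at h2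
    exact sub_eq_zero.1 h2
  -- the adjoint
  set B' : Module.End (ZMod 2) M := ρ b⁻¹ with hB'
  have hB'B : B' = B ^ 2 ^ m := by
    rw [hB', hB, ← map_pow]
    congr 1
    rw [inv_eq_iff_mul_eq_one, ← pow_succ', ← hβm, hbβ]
  have hadj : ∀ x y, e (B x) y = e x (B' y) := by
    intro x y
    have h1 := hinv b⁻¹ (B x) y
    rw [← h1, hB, ← Module.End.mul_apply, ← map_mul, inv_mul_cancel, map_one]
    rfl
  have hkey : ∀ x ∈ N, ∀ y ∈ N, e x ((τ ^ β) y) = e x y := by
    intro x hx y hy
    have h1 : e (τ x) (τ y) = e x y := hinv t x y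
    rw [← h1, ← hτP x hx, pairing_aeval he B B' hadj P, hB'B, aeval_pow]
    congr 1
    have h2 : ∀ i : ℕ, ∀ z ∈ N, ((aeval B P) ^ i) z = (τ ^ i) z := by
      intro i
      induction i with
      | zero => intro z _; rfl
      | succ i ih =>
        intro z hz
        rw [pow_succ, pow_succ, Module.End.mul_apply, Module.End.mul_apply, hτP z hz,
          ih _ (hτN z hz)]
    rw [h2 _ _ (hτN y hy), ← Module.End.mul_apply, ← pow_succ, ← hβm]
  have hτβ : ∀ y ∈ N, (τ ^ β) y = y := by
    intro y hy
    have hpowN : ∀ i : ℕ, (τ ^ i) y ∈ N := by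
      intro i
      induction i with
      | zero => exact hy
      | succ i ih => rw [pow_succ', Module.End.mul_apply]; exact hτN _ ih
    have hzN : (τ ^ β) y - y ∈ N := sub_mem (hpowN β) hy
    have h0 : (τ ^ β) y - y = 0 := by
      apply hnd
      intro w
      have h1 : Submodule.map (B - 1) N = N := by
        apply hirr
        · rintro _ ⟨z, _, rfl⟩
          exact ⟨z, rfl⟩
        · rintro _ ⟨z, hz, rfl⟩
          refine ⟨B z, hBN z hz, ?_⟩
          have h1 : B * (B - 1) = (B - 1) * B := by rw [mul_sub, sub_mul, mul_one, one_mul]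
          exact (congrArg (fun f : Module.End (ZMod 2) M => f z) h1).symm
        · intro h
          have h2 : (B - 1) x₀ ∈ Submodule.map (B - 1) N := ⟨x₀, hx₀N, rfl⟩
          rw [h, Submodule.mem_bot] at h2
          exact hx₀ (hfree x₀ hx₀N (sub_eq_zero.1 h2))
      have h2 : y ∈ Submodule.map (B - 1) N := by rw [h1]; exact hy
      obtain ⟨y', hy'N, hy'⟩ := h2
      have hy'' : B y' - y' = y := hy'
      have hcommβ : (τ ^ β) (B y') = B ((τ ^ β) y') := by
        have h3 : (τ ^ β) * B = B * τ ^ β := ((show Commute τ B from hcomm).pow_left β).eq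
        exact congrArg (fun f : Module.End (ZMod 2) M => f y') h3
      have h3 : (τ ^ β) y - y = B ((τ ^ β) y' - y') - ((τ ^ β) y' - y') := by
        rw [← hy'', map_sub, map_sub, hcommβ]
        abel
      have hsub : ∀ a b c : M, e (a - b) c * e b c = e a c := by
        intro a b c
        rw [← he.add_left, sub_add_cancel]
      have hsubr : ∀ a b c : M, e c (a - b) * e c b = e c a := by
        intro a b c
        rw [← he.add_right, sub_add_cancel]
      have hn : B' w - w ∈ N := by
        have h4 : B' w - w = -(B (B' w) - B' w) := by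
          have h5 : B (B' w) = w := by
            rw [hB, hB', ← Module.End.mul_apply, ← map_mul, mul_inv_cancel, map_one]; rfl
          rw [h5]; abel
        rw [h4]
        exact neg_mem (hNmem _)
      have h4 : e ((τ ^ β) y' - y') (B' w - w) = 1 := by
        have h5 := hkey _ hn y' hy'N
        have h6 := hsubr ((τ ^ β) y') y' (B' w - w)
        rw [h5] at h6
        have h7 : e (B' w - w) ((τ ^ β) y' - y') = 1 :=
          mul_right_cancel₀ (he.ne_zero _ _) (by rw [one_mul]; exact h6)
        have h8 := he.mul_swap ((τ ^ β) y' - y') (B' w - w)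
        rwa [h7, mul_one] at h8
      rw [h3]
      set z := (τ ^ β) y' - y' with hz
      have h5 := hsub (B z) z w
      have h6 := hsubr (B' w) w z
      rw [h4, one_mul] at h6
      rw [hadj, ← h6] at h5
      exact mul_right_cancel₀ (he.ne_zero _ _) (by rw [one_mul]; exact h5)
    exact sub_eq_zero.1 h0
  intro x
  have h1 : Function.IsPeriodicPt τ β (B x - x) := by
    have h2 := hτβ _ (hNmem x)
    rw [Module.End.pow_apply] at h2
    exact h2
  have h2 : Function.IsPeriodicPt τ (orderOf t) (B x - x) := by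
    have h3 : (τ ^ orderOf t) (B x - x) = B x - x := by
      rw [hτ, ← map_pow, pow_orderOf_eq_one, map_one]; rfl
    rw [Module.End.pow_apply] at h3
    exact h3
  have h3 := h2.gcd h1
  rw [hcop.gcd_eq_one] at h3
  exact h3

end Cent

section Final

variable {q : ℕ} [hq : Fact q.Prime] {M : Type*} [AddCommGroup M] [Module (ZMod q) M] [Finite M]
  {k : Type*} [Field k] {G : Type*} [Group G] [Finite G]

theorem false_of_fermat (hc : q.Coprime (Nat.card G)) (ρ : Representation (ZMod q) G M)
    {e : M → M → k} (he : IsPairing e)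
    (hinv : ∀ g x y, e (ρ g x) (ρ g y) = e x y) (hnd : ∀ x, (∀ y, e x y = 1) → x = 0)
    (T : Subgroup G) (hT : ∀ x ∈ T, ∀ y ∈ T, ρ (x * y) = ρ (y * x)) (b : G)
    (hbT : b ∈ normalizer (T : Set G)) {β m : ℕ} (hβ : β.Prime) (hbβ : b ^ β = 1)
    (hm : 0 < m) (hβm : β = q ^ m + 1) (hcop : (Nat.card T).Coprime β)
    (hcod : finrank (ZMod q) M = finrank (ZMod q) (fixed ρ (zpowers b)) + 2 * m)
    (hfix : ∀ x, (∀ t ∈ T, ρ t x = x) → x = 0) : False := by
  classical
  obtain rfl : q = 2 := by
    by_contra hq2
    have h1 : Even β := by rw [hβm]; exact ((hq.out.odd_of_ne_two hq2).pow).add_one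
    have h2 := (hβ.even_iff).1 h1
    have h3 : 1 < q ^ m := Nat.one_lt_pow hm.ne' hq.out.one_lt
    omega
  let u : G →* (Module.End (ZMod 2) M)ˣ := MonoidHom.toHomUnits ρ
  have hu : ∀ g, ((u g : (Module.End (ZMod 2) M)ˣ) : Module.End (ZMod 2) M) = ρ g := fun g => rfl
  let ρ' : Representation (ZMod 2) u.range M := (Units.coeHom _).comp u.range.subtype
  have hρ' : ∀ g : u.range, ρ' g = ((g : (Module.End (ZMod 2) M)ˣ) : Module.End (ZMod 2) M) :=
    fun g => rfl
  have hρ'' : ∀ g : G, ρ' (u.rangeRestrict g) = ρ g := fun g => rfl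
  have hsurj : Function.Surjective u.rangeRestrict := u.rangeRestrict_surjective
  have hfin : Finite u.range := Finite.of_surjective _ hsurj
  have hcard : Nat.card u.range ∣ Nat.card G := by
    have := Subgroup.card_range_dvd u
    exact this
  have hc' : (2 : ℕ).Coprime (Nat.card u.range) := hc.coprime_dvd_right hcard
  have hinv' : ∀ g x y, e (ρ' g x) (ρ' g y) = e x y := by
    intro g x y
    obtain ⟨g, rfl⟩ := hsurj g
    exact hinv g x y
  have hinj : Function.Injective ρ' := by
    intro g h hgh
    exact Subtype.ext (Units.ext hgh)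
  have hfixeq : fixed ρ' (zpowers (u.rangeRestrict b)) = fixed ρ (zpowers b) := by
    ext x
    constructor
    · intro h g hg
      have h1 : u.rangeRestrict g ∈ zpowers (u.rangeRestrict b) := by
        rw [← MonoidHom.map_zpowers]
        exact ⟨g, hg, rfl⟩
      exact h _ h1
    · intro h g hg
      rw [← MonoidHom.map_zpowers] at hg
      obtain ⟨g, hg, rfl⟩ := hg
      exact h g hg
  have hcod' : finrank (ZMod 2) M = finrank (ZMod 2)
      (fixed ρ' (zpowers (u.rangeRestrict b))) + 2 * m := by rw [hfixeq]; exact hcod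
  have hbβ' : (u.rangeRestrict b) ^ β = 1 := by rw [← map_pow, hbβ, map_one]
  have hcopT : (Nat.card (T.map u.rangeRestrict)).Coprime β :=
    Nat.Coprime.coprime_dvd_left (Subgroup.card_map_dvd T u.rangeRestrict) hcop
  have hbot := commutator_eq_bot hc' ρ' hinj he hinv' hnd (T.map u.rangeRestrict) (by
      rintro _ ⟨x, hx, rfl⟩ _ ⟨y, hy, rfl⟩
      apply hinj
      rw [← map_mul, ← map_mul, hρ'', hρ'']
      exact hT x hx y hy) (u.rangeRestrict b) (by
      rw [mem_normalizer_iff]
      have h0 : ∀ b ∈ normalizer (T : Set G), ∀ x ∈ T.map u.rangeRestrict,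
          u.rangeRestrict b * x * (u.rangeRestrict b)⁻¹ ∈ T.map u.rangeRestrict := by
        rintro b hb _ ⟨x, hx, rfl⟩
        refine ⟨b * x * b⁻¹, (mem_normalizer_iff.1 hb x).1 hx, ?_⟩
        rw [map_mul, map_mul, map_inv]
      intro x
      refine ⟨h0 b hbT x, fun hx => ?_⟩
      have h1 := h0 b⁻¹ (inv_mem hbT) _ hx
      rw [map_inv, inv_inv] at h1
      have h2 : (u.rangeRestrict b)⁻¹ * (u.rangeRestrict b * x * (u.rangeRestrict b)⁻¹) *
        u.rangeRestrict b = x := by group
      rwa [h2] at h1) hβ hbβ' hβm hcopT hcod'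
  have htriv : ∀ x, ρ b x - x = 0 := by
    intro x
    apply hfix
    intro t ht
    have hcomm : Commute (u.rangeRestrict b) (u.rangeRestrict t) := by
      rw [commutator_eq_bot_iff_le_centralizer] at hbot
      exact mem_centralizer_iff.1 (hbot ⟨t, ht, rfl⟩) _ (mem_zpowers _)
    have hot : (orderOf (u.rangeRestrict t)).Coprime β := by
      refine Nat.Coprime.coprime_dvd_left ?_ hcopT
      have h1 : u.rangeRestrict t ∈ T.map u.rangeRestrict := ⟨t, ht, rfl⟩
      have h2 := orderOf_dvd_natCard (⟨_, h1⟩ : T.map u.rangeRestrict)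
      rwa [← Subgroup.orderOf_coe] at h2
    exact fixed_range ρ' he hinv' hnd (u.rangeRestrict b) (u.rangeRestrict t) hcomm hβ hbβ' hm hβm
      hot hcod' x
  have htop : fixed ρ (zpowers b) = ⊤ := by
    rw [eq_top_iff]
    intro x _ g hg
    have h3 := ((isOfFinOrder_of_finite b).mem_powers_iff_mem_zpowers).2 hg
    rw [Submonoid.mem_powers_iff] at h3
    obtain ⟨i, rfl⟩ := h3
    rw [map_pow]
    have hb : ρ b x = x := sub_eq_zero.1 (htriv x)
    clear hg
    induction i with
    | zero => rfl
    | succ i ih => rw [pow_succ, Module.End.mul_apply, hb, ih]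
  rw [htop, finrank_top] at hcod
  omega

end Final

end Cfsg.Agent.Lib.FermatLin
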