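import Cfsg.Agent.Lib.HeisStep2
import Cfsg.Agent.Lib.FermatLin

/-!
An element of prime order acting without fixed points on a weight space acts trivially on the
symplectic section (helper59).
-/

set_option autoImplicit false

namespace Cfsg.Agent.Lib.FpfPQ1

open Module Subgroup Cfsg.Agent.Lib.WielandtFix Cfsg.Agent.Lib.SympFix Cfsg.Agent.Lib.WtGroup
  Cfsg.Agent.Lib.Weights Cfsg.Agent.Lib.CoprimeAction Cfsg.Agent.Lib.CoprimeAction2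
  Cfsg.Agent.Lib.SubgroupTools Cfsg.Agent.Lib.Ward
open scoped commutatorElement

universe u v w

section Main

variable {Γ : Type u} [Group Γ] [Finite Γ] {k : Type v} {W : Type w}
    [Field k] [IsAlgClosed k] [AddCommGroup W] [Module k W] [FiniteDimensional k W]

theorem exists_weight (H : Γ →* Module.End k W) {Q Z R : Subgroup Γ} {μ : Γ → k}
    {q : ℕ} [hqf : Fact q.Prime] (hQ : IsPGroup q Q) (hRQ : R ≤ Q)
    (hZc : ∀ z ∈ Z, ∀ y ∈ Q, Commute y z) (hDZ : ⁅Q, Q⁆ ≤ Z) (hZR : Z ≤ R) {v₀ : W}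
    (hv₀ : v₀ ≠ 0) (hv₀μ : IsWt H Z μ v₀) (hkq : (q : k) ≠ 0)
    (hR : ∀ x, x ∈ R ↔ x ∈ Q ∧ ∀ y ∈ Q, μ ⁅x, y⁆ = 1) :
    ∃ (v : W) (χ : Γ → k), v ≠ 0 ∧ IsWt H Z μ v ∧ IsWt H R χ v ∧ ∀ z ∈ Z, χ z = μ z := by
  have hcomZ : ∀ x ∈ Q, ∀ y ∈ Q, ⁅x, y⁆ ∈ Z := fun x hx y hy => hDZ (commutator_mem_commutator hx hy)
  set V : Submodule k W := wtSub H Z μ with hV
  have hVQ : ∀ x ∈ Q, ∀ w ∈ V, H x w ∈ V := by
    intro x hx w hw z hz
    rw [← Module.End.mul_apply, ← map_mul, ← (hZc z hz x hx).eq, map_mul, Module.End.mul_apply,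
      hw z hz, map_smul]
  have hcomR : ∀ x ∈ R, ∀ y ∈ R, ∀ w ∈ V, H x (H y w) = H y (H x w) := by
    intro x hx y hy w hw
    have h1 : x * y = ⁅x, y⁆ * (y * x) := by rw [commutatorElement_def]; group
    have h2 : H (y * x) w ∈ V := hVQ _ (mul_mem (hRQ hy) (hRQ hx)) w hw
    rw [← Module.End.mul_apply, ← map_mul, h1, map_mul, Module.End.mul_apply,
      h2 _ (hcomZ x (hRQ hx) y (hRQ hy)), ((hR x).1 hx).2 y (hRQ hy), one_smul, map_mul,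
      Module.End.mul_apply]
  have hcardk : (Nat.card R : k) ≠ 0 := by
    intro h
    obtain ⟨m, hm⟩ := IsPGroup.iff_card.1 (hQ.to_le hRQ)
    rw [hm, Nat.cast_pow] at h
    exact pow_ne_zero m hkq h
  have hpowcard : ∀ x ∈ R, x ^ Nat.card R = 1 := by
    intro x hx
    have h1 : (⟨x, hx⟩ : R) ^ Nat.card R = 1 := pow_card_eq_one'
    exact congrArg (Subtype.val : R → Γ) h1
  by_contra hcon
  push Not at hcon
  apply hv₀
  symm
  change (0 : Module.End k W) v₀ = v₀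
  refine eq_on_of_weights H V R (fun x hx u hu => hVQ x (hRQ hx) u hu) hcomR (Nat.card R) hcardk
    hpowcard 0 ?_ v₀ hv₀μ
  intro v hvV χ hv0 hv
  exfalso
  obtain ⟨z, hz, hne⟩ := hcon v χ hv0 hvV hv
  apply hne
  have h1 := hv z (hZR hz)
  rw [hvV z hz] at h1
  have h2 : (χ z - μ z) • v = 0 := by rw [sub_smul, h1, sub_self]
  rcases smul_eq_zero.1 h2 with h3 | h3
  · exact sub_eq_zero.1 h3
  · exact absurd h3 hv0

/-- the weight `χ` has order `q` if `C_Q(T) ≤ Z` -/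
theorem weight_pow (H : Γ →* Module.End k W) {Q Z R T : Subgroup Γ} {μ χ : Γ → k}
    {q : ℕ} [hqf : Fact q.Prime] (hQ : IsPGroup q Q) (hRQ : R ≤ Q) {v₀ : W}
    (hv₀ : v₀ ≠ 0) (hv₀χ : IsWt H R χ v₀) (hχμ : ∀ z ∈ Z, χ z = μ z)
    (hQq : ∀ x ∈ Q, x ^ q ∈ Z) (hZq : ∀ z ∈ Z, z ^ q = 1) (hZR : Z ≤ R)
    (hTR : T ≤ normalizer (R : Set Γ)) (hTμ : T ≤ stab Z μ) (hCT : Q ⊓ centralizer (T : Set Γ) ≤ Z)
    (hcop : (Nat.card T).Coprime (Nat.card Q)) : ∀ x ∈ R, χ x ^ q = 1 := by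
  have hm : ∀ x ∈ R, ∀ y ∈ R, χ (x * y) = χ x * χ y := fun x hx y hy => isWt_mul hv₀χ hv₀ hx hy
  have h1 : χ 1 = 1 := isWt_one hv₀χ hv₀
  have hpow : ∀ x ∈ R, ∀ n : ℕ, χ (x ^ n) = χ x ^ n := by
    intro x hx n
    induction n with
    | zero => rw [pow_zero, pow_zero, h1]
    | succ n ih => rw [pow_succ, pow_succ, hm _ (pow_mem hx n) _ hx, ih]
  have hμ : ∀ x ∈ R, χ x ^ q = μ (x ^ q) := by
    intro x hx
    rw [← hpow x hx, hχμ _ (hQq x (hRQ hx))]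
  have hinvχ : ∀ x ∈ R, χ x * χ x⁻¹ = 1 := fun x hx => isWt_inv hv₀χ hv₀ hx
  let E : Subgroup Γ :=
    { carrier := {x | x ∈ R ∧ χ x ^ q = 1}
      one_mem' := ⟨one_mem _, by rw [h1, one_pow]⟩
      mul_mem' := by
        rintro a b ⟨ha, ha'⟩ ⟨hb, hb'⟩
        exact ⟨mul_mem ha hb, by rw [hm a ha b hb, mul_pow, ha', hb', one_mul]⟩
      inv_mem' := by
        rintro a ⟨ha, ha'⟩
        refine ⟨inv_mem ha, ?_⟩
        have h2 : (χ a * χ a⁻¹) ^ q = 1 := by rw [hinvχ a ha, one_pow]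
        rwa [mul_pow, ha', one_mul] at h2 }
  have hRT : ⁅R, T⁆ ≤ E := by
    rw [commutator_le]
    intro x hx t ht
    have h2 : t * x⁻¹ * t⁻¹ ∈ R := (le_normalizer_iff.1 hTR) t ht _ (inv_mem hx)
    have h3 : ⁅x, t⁆ = x * (t * x⁻¹ * t⁻¹) := by rw [commutatorElement_def]; group
    refine ⟨by rw [h3]; exact mul_mem hx h2, ?_⟩
    rw [h3, hm x hx _ h2, mul_pow, hμ _ h2]
    have h4 : (t * x⁻¹ * t⁻¹) ^ q = t * x⁻¹ ^ q * t⁻¹ := by
      rw [conj_pow]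
    have h5 := (hTμ (inv_mem ht)).2 (x⁻¹ ^ q) (hQq _ (hRQ (inv_mem hx)))
    rw [inv_inv] at h5
    rw [h4, h5, ← hμ _ (inv_mem hx), ← mul_pow, hinvχ x hx, one_pow]
  have hRs : Group.IsSolvable R := by
    have : Group.IsNilpotent R := (hQ.to_le hRQ).isNilpotent
    infer_instance
  intro x hx
  obtain ⟨r, hr, c, hc, rfl⟩ := exists_eq_mul_of_mem hTR
    (hcop.coprime_dvd_right (card_dvd_of_le hRQ)) (Or.inr hRs) hx
  have hcZ : c ∈ Z := hCT ⟨hRQ hc.1, hc.2⟩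
  have hrR := (hRT hr).1
  rw [hm _ hrR _ hc.1, mul_pow, (hRT hr).2, one_mul, ← hpow c hc.1, hZq c hcZ, h1]

theorem trivial_of_prime (H : Γ →* Module.End k W) {Q Z R T : Subgroup Γ} {μ : Γ → k}
    {q : ℕ} [hqf : Fact q.Prime] (hQ : IsPGroup q Q) (hTQ : T ≤ normalizer (Q : Set Γ))
    {b : Γ} (hbQ : b ∈ normalizer (Q : Set Γ)) (hbT : b ∈ normalizer (T : Set Γ)) (hZQ : Z ≤ Q)
    (hZc : ∀ z ∈ Z, ∀ y ∈ Q, Commute y z) (hDZ : ⁅Q, Q⁆ ≤ Z) (hTμ : T ≤ stab Z μ)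
    (hbμ : b ∈ stab Z μ) {v₀ : W} (hv₀ : v₀ ≠ 0) (hv₀μ : IsWt H Z μ v₀)
    [Fintype (zpowers b)] (hsum : ∀ w, IsWt H Z μ w → ∑ u : zpowers b, H (u : Γ) w = 0)
    {β : ℕ} (hβ : β.Prime) (hbβ : b ^ β = 1) (hβq : β ≠ q) (hTβ : (Nat.card T).Coprime β)
    (hCT : Q ⊓ centralizer (T : Set Γ) ≤ Z)
    (hTab : ⁅T, T⁆ ≤ centralizer (Q : Set Γ)) (hTc : (Nat.card T).Coprime (Nat.card Q))
    (hTq : (Nat.card T).Coprime q)
    (hQq : ∀ x ∈ Q, x ^ q ∈ Z) (hZq : ∀ z ∈ Z, z ^ q = 1) {z₀ : Γ} (hz₀ : z₀ ∈ Z)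
    (hμz₀ : μ z₀ ≠ 1) (hR : ∀ x, x ∈ R ↔ x ∈ Q ∧ ∀ y ∈ Q, μ ⁅x, y⁆ = 1) (hkq : (q : k) ≠ 0)
    (hkβ : (β : k) ≠ 0) : ∀ x ∈ Q, b * x * b⁻¹ * x⁻¹ ∈ R := by
  classical
  have hq := hqf.out
  have hβf := Fact.mk hβ
  by_cases hb1 : b = 1
  · intro x hx
    rw [hb1, one_mul, inv_one, mul_one, mul_inv_cancel]
    exact one_mem _
  have hRQ : R ≤ Q := fun x hx => ((hR x).1 hx).1
  have hμ1 : μ 1 = 1 := isWt_one hv₀μ hv₀
  have hμm : ∀ x ∈ Z, ∀ y ∈ Z, μ (x * y) = μ x * μ y := fun x hx y hy => isWt_mul hv₀μ hv₀ hx hy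
  set X : Subgroup Γ := T ⊔ zpowers b with hX
  have hTX : T ≤ X := le_sup_left
  have hUX : zpowers b ≤ X := le_sup_right
  have hXQ : X ≤ normalizer (Q : Set Γ) := sup_le hTQ (zpowers_le.2 hbQ)
  have hXμ : X ≤ stab Z μ := sup_le hTμ (zpowers_le.2 hbμ)
  obtain ⟨hZR, hQR, hXR⟩ := SympSec.radical_props hZQ hZc hDZ hμ1 hXQ hXμ hR
  obtain ⟨M, _, _, _, ρ, π, e, hπ, hadd, hker, hρ, he, heμ, hnd, hinv⟩ :=
    SympSec.exists_symp (q := q) hZQ hZc hDZ hQq hμ1 hμm hXQ hXμ hR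
  set bX : X := ⟨b, hUX (mem_zpowers b)⟩ with hbX
  have hπ1 : π 1 = 0 := (hker 1).2 (one_mem _)
  have hπinv : ∀ x, π x⁻¹ = -π x := by
    intro x
    have h1 := hadd x x⁻¹
    rw [mul_inv_cancel, hπ1] at h1
    exact (neg_eq_of_add_eq_zero_right h1.symm).symm
  by_contra hnot
  push Not at hnot
  obtain ⟨x₁, hx₁, hx₁'⟩ := hnot
  have hne : ∃ m, ρ bX m ≠ m := by
    refine ⟨π ⟨x₁, hx₁⟩, ?_⟩
    rw [hρ bX ⟨x₁, hx₁⟩ ⟨b * x₁ * b⁻¹, (mem_normalizer_iff.1 hbQ x₁).1 hx₁⟩ rfl]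
    intro h
    apply hx₁'
    have h1 : π (⟨b * x₁ * b⁻¹, (mem_normalizer_iff.1 hbQ x₁).1 hx₁⟩ * ⟨x₁, hx₁⟩⁻¹) = 0 := by
      rw [hadd, hπinv, h, add_neg_cancel]
    exact (hker _).1 h1
  obtain ⟨v, χ, hv, hvμ, hvχ, hχμ⟩ := exists_weight H hQ hRQ hZc hDZ hZR hv₀ hv₀μ hkq hR
  have hUR : zpowers b ≤ normalizer (R : Set Γ) := hUX.trans hXR
  have hbχ : b ∈ stab R χ := by
    by_contra hcon
    have h1 := sum_stab_eq_zero H hUR hvχ (hsum v hvμ)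
    have h2 : (Finset.univ.filter fun a' : zpowers b => (a' : Γ) ∈ stab R χ) = {1} := by
      ext a'
      simp only [Finset.mem_filter, Finset.mem_univ, true_and, Finset.mem_singleton]
      constructor
      · intro h
        by_contra h3
        apply hcon
        exact (zpowers_le.2 h) (gen_of_mem hβ hbβ a'.2 (fun h4 => h3 (Subtype.ext h4)))
      · rintro rfl
        exact one_mem _
    rw [h2, Finset.sum_singleton] at h1
    apply hv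
    simpa using h1
  have hχq := weight_pow H hQ hRQ hv hvχ hχμ hQq hZq hZR (hTX.trans hXR) hTμ hCT hTc
  have hcardU : Nat.card (zpowers b) = β := by
    rw [Nat.card_zpowers]; exact orderOf_eq_prime hbβ hb1
  obtain ⟨m, hm, hmβ, hcod⟩ := HeisStep2.heis_step2 H hQ hUX hXQ hZQ hZc hDZ hXμ hv hvχ hχμ
    (zpowers_le.2 hbχ) (fun w hw => hsum w (fun z hz => by rw [hw z (hZR hz), hχμ z hz]))
    (mem_zpowers b) (fun u hu hu1 => gen_of_mem hβ hbβ hu hu1) hχq hQq hz₀ hμz₀ hR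
    (inferInstance) (by
      intro a ha c hc
      obtain ⟨i, rfl⟩ := mem_zpowers_iff.1 ha
      obtain ⟨j, rfl⟩ := mem_zpowers_iff.1 hc
      exact Commute.zpow_zpow_self b i j) (by
      rw [hcardU]
      exact (Nat.coprime_primes hq hβ).2 hβq.symm) hkq (by rw [hcardU]; exact hkβ) ρ π e hπ hadd
    hker hρ he heμ hnd hinv bX rfl hne
  rw [hcardU] at hmβ
  have hcardX : q.Coprime (Nat.card X) := by
    have h1 : Nat.card X ∣ Nat.card T * Nat.card (zpowers b) := by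
      have h2 := card_sup_mul_card_inf (N := T) (H := zpowers b) (zpowers_le.2 hbT)
      exact ⟨_, h2.symm⟩
    refine Nat.Coprime.coprime_dvd_right h1 ?_
    rw [hcardU]
    exact Nat.Coprime.mul_right hTq.symm ((Nat.coprime_primes hq hβ).2 hβq.symm)
  refine FermatLin.false_of_fermat (G := X) hcardX ρ he hinv hnd (T.subgroupOf X) ?_ bX ?_ hβ ?_ hm
    hmβ ?_ hcod ?_
  · intro x hx y hy
    refine LinearMap.ext fun m => ?_
    obtain ⟨z, rfl⟩ := hπ m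
    have hn := fun (a : X) => (le_normalizer_iff.1 hXQ) a a.2 z z.2
    rw [hρ (x * y) z ⟨_, hn (x * y)⟩ rfl, hρ (y * x) z ⟨_, hn (y * x)⟩ rfl]
    congr 1
    apply Subtype.ext
    change ((x * y : X) : Γ) * z * ((x * y : X) : Γ)⁻¹ = ((y * x : X) : Γ) * z * ((y * x : X) : Γ)⁻¹
    have hx' : (x : Γ) ∈ T := hx
    have hy' : (y : Γ) ∈ T := hy
    have h1 : ⁅(x : Γ)⁻¹, (y : Γ)⁻¹⁆ ∈ centralizer (Q : Set Γ) :=
      hTab (commutator_mem_commutator (inv_mem hx') (inv_mem hy'))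
    have h2 := mem_centralizer_iff.1 h1 z z.2
    rw [commutatorElement_def, inv_inv, inv_inv] at h2
    rw [Subgroup.coe_mul, Subgroup.coe_mul]
    calc (x : Γ) * y * z * ((x : Γ) * y)⁻¹
        = (y : Γ) * x * (((x : Γ)⁻¹ * (y : Γ)⁻¹ * x * y) * z) * ((x : Γ) * y)⁻¹ := by group
      _ = (y : Γ) * x * ((z : Γ) * ((x : Γ)⁻¹ * (y : Γ)⁻¹ * x * y)) * ((x : Γ) * y)⁻¹ := by rw [h2]
      _ = (y : Γ) * x * z * ((y : Γ) * x)⁻¹ := by group
  · rw [mem_normalizer_iff]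
    intro x
    exact mem_normalizer_iff.1 hbT x
  · exact Subtype.ext hbβ
  · rw [card_subgroupOf_of_le hTX]
    exact hTβ
  · intro m hm
    obtain ⟨y, rfl⟩ := hπ m
    rw [hker]
    have hRs : Group.IsSolvable R := by
      have : Group.IsNilpotent R := (hQ.to_le hRQ).isNilpotent
      infer_instance
    obtain ⟨d, hd, hc⟩ := exists_mul_mem_centralizer (A := T) (D := R) (hTX.trans hXR)
      (hTc.coprime_dvd_right (card_dvd_of_le hRQ)) (Or.inr hRs) (y : Γ) (by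
        intro t ht
        have hn := (le_normalizer_iff.1 hTQ) t ht y y.2
        have h1 := hm ⟨t, hTX ht⟩ ht
        rw [hρ ⟨t, hTX ht⟩ y ⟨_, hn⟩ rfl] at h1
        have h2 : π (y⁻¹ * ⟨t * y * t⁻¹, hn⟩) = 0 := by
          rw [hadd, hπinv, h1, neg_add_cancel]
        exact (hker _).1 h2)
    have h1 : (y : Γ) * d ∈ Z := hCT ⟨mul_mem y.2 (hRQ hd), hc⟩
    have h2 := mul_mem (hZR h1) (inv_mem hd)
    rwa [mul_inv_cancel_right] at h2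

end Main

end Cfsg.Agent.Lib.FpfPQ1
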