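import Cfsg.Agent.Lib.FratFit
import Cfsg.Agent.Lib.Fitting
import Cfsg.Agent.Lib.HBBasic

/-!
Reduction to the case where the Fitting subgroup is an elementary abelian `p`-group (helper59).
-/

set_option autoImplicit false

namespace Cfsg.Agent.Lib.FitRed

open Subgroup Cfsg
open scoped commutatorElement

/-- `M/N` nilpotent from the lower central series of `M`. -/
theorem isNilpotent_map_of_lcs {G : Type*} [Group G] {M N : Subgroup G} [N.Normal] {k : ℕ}
    (h : M.lowerCentralSeries k ≤ N) : Group.IsNilpotent (M.map (QuotientGroup.mk' N)) := by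
  rw [Subgroup.isNilpotent_iff_lowerCentralSeries]
  refine ⟨k, ?_⟩
  rw [← map_lowerCentralSeries, Subgroup.map_eq_bot_iff, QuotientGroup.ker_mk']
  exact h

theorem lcs_mono {G : Type*} [Group G] {M N : Subgroup G} (h : M ≤ N) (k : ℕ) :
    M.lowerCentralSeries k ≤ N.lowerCentralSeries k := by
  induction k with
  | zero => exact h
  | succ k ih => exact commutator_mono ih h

theorem characteristic_pCore (G : Type*) [Group G] (p : ℕ) : (pCore p G).Characteristic := by
  rw [Subgroup.characteristic_iff_map_eq]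
  intro e
  exact Lib.Fitting.map_pCore_equiv p e

theorem characteristic_fittingSubgroup (G : Type*) [Group G] :
    (fittingSubgroup G).Characteristic := by
  rw [Subgroup.characteristic_iff_map_eq]
  intro e
  exact Lib.Fitting.map_fittingSubgroup_equiv e

/-- Reduction theorem. `Y N` should be read as: `G/N` lies in a fixed formation. -/
theorem fit_red {G : Type*} [Group G] [Finite G] [Group.IsSolvable G] (Y : Subgroup G → Prop)
    (htop : Y ⊤) (hmono : ∀ M N : Subgroup G, M.Normal → N.Normal → M ≤ N → Y M → Y N)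
    (hinf : ∀ M N : Subgroup G, M.Normal → N.Normal → Y M → Y N → Y (M ⊓ N))
    (hN : ∀ N : Subgroup G, N.Characteristic → N ≠ ⊥ →
      ∃ M : Subgroup G, M.Normal ∧ N ≤ M ∧ Y M ∧ ∃ k, M.lowerCentralSeries k ≤ N)
    (hG : ¬ Y (fittingSubgroup G)) :
    ∃ p : ℕ, p.Prime ∧ fittingSubgroup G = pCore p G ∧ IsPGroup p (pCore p G) ∧ pCore p G ≠ ⊥ ∧
      (∀ x ∈ pCore p G, ∀ y ∈ pCore p G, x * y = y * x) ∧ (∀ x ∈ pCore p G, x ^ p = 1) ∧
      frattini G = ⊥ ∧ centralizer (pCore p G : Set G) = pCore p G := by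
  have hFn : (fittingSubgroup G).Normal := Lib.Fitting.normal_fittingSubgroup
  have hOchar : ∀ p : ℕ, (pCore p G).Characteristic := characteristic_pCore G
  -- Frattini
  have hΦ : frattini G = ⊥ := by
    by_contra hne
    obtain ⟨M, hM, hNM, hYM, k, hk⟩ := hN (frattini G) inferInstance hne
    apply hG
    refine hmono M _ hM hFn ?_ hYM
    exact Lib.Fitting.le_fittingSubgroup hM
      (Lib.FratFit.isNilpotent_of_quotient_frattini M (frattini G) hNM le_rfl
        (isNilpotent_map_of_lcs hk))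
  -- one prime
  have hone : ∀ p q : ℕ, p.Prime → q.Prime → p ≠ q → pCore p G ≠ ⊥ → pCore q G = ⊥ := by
    intro p q hp hq hpq hp1
    by_contra hq1
    obtain ⟨M₁, hM₁, -, hY₁, k₁, hk₁⟩ := hN (pCore p G) (hOchar p) hp1
    obtain ⟨M₂, hM₂, -, hY₂, k₂, hk₂⟩ := hN (pCore q G) (hOchar q) hq1
    apply hG
    refine hmono (M₁ ⊓ M₂) _ inferInstance hFn ?_ (hinf _ _ hM₁ hM₂ hY₁ hY₂)
    refine Lib.Fitting.le_fittingSubgroup inferInstance ?_
    rw [Subgroup.isNilpotent_iff_lowerCentralSeries]
    refine ⟨max k₁ k₂, ?_⟩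
    have h1 : (M₁ ⊓ M₂).lowerCentralSeries (max k₁ k₂) ≤ pCore p G :=
      ((Subgroup.lowerCentralSeries_antitone _ (le_max_left _ _)).trans
        (lcs_mono inf_le_left _)).trans hk₁
    have h2 : (M₁ ⊓ M₂).lowerCentralSeries (max k₁ k₂) ≤ pCore q G :=
      ((Subgroup.lowerCentralSeries_antitone _ (le_max_right _ _)).trans
        (lcs_mono inf_le_right _)).trans hk₂
    have := Fact.mk hp
    have := Fact.mk hq
    have hdis : Disjoint (pCore p G) (pCore q G) :=
      IsPGroup.disjoint_of_ne p q hpq _ _ (Lib.Fitting.isPGroup_pCore p)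
        (Lib.Fitting.isPGroup_pCore q)
    rw [eq_bot_iff]
    exact hdis h1 h2
  -- nontrivial
  have hF1 : fittingSubgroup G ≠ ⊥ := by
    intro h
    rcases subsingleton_or_nontrivial G with hs | hn
    · apply hG
      rwa [show fittingSubgroup G = ⊤ from Subsingleton.elim _ _]
    · exact Lib.Fitting.fittingSubgroup_ne_bot h
  obtain ⟨p, hp, hpF⟩ : ∃ p : ℕ, p.Prime ∧ pCore p G ≠ ⊥ := by
    by_contra hcon
    push Not at hcon
    apply hF1
    rw [Lib.Fitting.fittingSubgroup_eq_iSup_pCore, eq_bot_iff]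
    exact iSup_le fun q => (hcon q.1 q.2).le
  have := Fact.mk hp
  have hFp : fittingSubgroup G = pCore p G := by
    apply le_antisymm _ (Lib.Fitting.pCore_le_fittingSubgroup p)
    rw [Lib.Fitting.fittingSubgroup_eq_iSup_pCore]
    refine iSup_le fun q => ?_
    by_cases hpq : (q : ℕ) = p
    · rw [hpq]
    · rw [hone p q hp q.2 (Ne.symm hpq) hpF]
      exact bot_le
  have hPp : IsPGroup p (pCore p G) := Lib.Fitting.isPGroup_pCore p
  have hPn : (pCore p G).Normal := Lib.Fitting.normal_pCore p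
  have hPnil : Group.IsNilpotent (pCore p G) := hPp.isNilpotent
  have hc := Lib.FratFit.commutator_eq_bot_of_frattini_eq_bot hΦ hPnil
  have hcomm : ∀ x ∈ pCore p G, ∀ y ∈ pCore p G, x * y = y * x := by
    intro x hx y hy
    have h := commutator_mem_commutator hx hy
    rw [hc, mem_bot, commutatorElement_eq_one_iff_mul_comm] at h
    exact h
  refine ⟨p, hp, hFp, hPp, hpF, hcomm, ?_, hΦ, ?_⟩
  · intro x hx
    have h1 := Lib.HBBasic.pow_mem_frattini hPp ⟨x, hx⟩
    have h2 := Lib.FratFit.frattini_map_le (pCore p G) (mem_map_of_mem _ h1)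
    rw [hΦ, mem_bot] at h2
    simpa using h2
  · apply le_antisymm
    · rw [← hFp]
      exact Lib.Fitting.centralizer_fittingSubgroup_le
    · intro x hx
      rw [mem_centralizer_iff]
      intro y hy
      exact hcomm y hy x hx

end Cfsg.Agent.Lib.FitRed
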