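import Cfsg.Agent.Lib.FpfRing
import Cfsg.Agent.Lib.ActRep
import Cfsg.Agent.Lib.FitRed

/-!
Fixed-point-free actions and quotients (helper59).
-/

set_option autoImplicit false

namespace Cfsg.Agent.Lib.FpfQuot

open Subgroup Cfsg
open scoped commutatorElement

universe u

/-- a fixed-point-free automorphism is fixed-point-free on quotients -/
theorem quot_fpf {G : Type u} [Group G] [Finite G] (σ : MulAut G) (hfpf : ∀ g, σ g = g → g = 1)
    (N : Subgroup G) [N.Normal] (hN : ∀ x ∈ N, σ x ∈ N) (τ : MulAut (G ⧸ N))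
    (hτ : ∀ g : G, τ (g : G ⧸ N) = ((σ g : G) : G ⧸ N)) : ∀ x, τ x = x → x = 1 := by
  intro x
  induction x using QuotientGroup.induction_on with | H g => ?_
  intro h
  rw [hτ, QuotientGroup.eq] at h
  obtain ⟨y, hy, hyg⟩ := Lib.FpfRing.exists_div σ.toMonoidHom N hN (fun x _ hx => hfpf x hx) _ h
  have hyg' : (σ y)⁻¹ * y = (σ g)⁻¹ * g := hyg
  have h1 : σ (y * g⁻¹) = y * g⁻¹ := by
    rw [map_mul, map_inv]
    calc σ y * (σ g)⁻¹ = σ y * ((σ g)⁻¹ * g) * g⁻¹ := by group
      _ = σ y * ((σ y)⁻¹ * y) * g⁻¹ := by rw [hyg']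
      _ = _ := by group
  have h2 := hfpf _ h1
  rw [mul_inv_eq_one] at h2
  rw [QuotientGroup.eq_one_iff, ← h2]
  exact hy

/-- a nilpotent normal subgroup is a `p'`-group if `O_p = 1` -/
theorem not_dvd_of_pCore {K : Type u} [Group K] [Finite K] {p : ℕ} [hp : Fact p.Prime]
    (hO : pCore p K = ⊥) (N : Subgroup K) [N.Normal] (hN : Group.IsNilpotent N) :
    ¬ p ∣ Nat.card N := by
  obtain ⟨P⟩ : Nonempty (Sylow p N) := inferInstance
  have hPn : (P : Subgroup N).Normal := by
    have h1 := (Group.isNilpotent_of_finite_tfae (G := N)).out 0 3 |>.mp hN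
    exact h1 p hp P
  have hPc : (P : Subgroup N).Characteristic := P.characteristic_of_normal hPn
  have h1 : (P : Subgroup N).map N.subtype ≤ pCore p K :=
    Lib.Fitting.le_pCore p inferInstance (P.2.map _)
  rw [hO, le_bot_iff, Subgroup.map_eq_bot_iff_of_injective _ N.subtype_injective] at h1
  have h2 := P.not_dvd_index
  rw [h1, index_bot] at h2
  exact h2

/-- transfer of nilpotency of the derived group from the quotient -/
theorem lcs_le_of_quotient {G : Type u} [Group G] (N : Subgroup G) [N.Normal]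
    (h : Group.IsNilpotent (commutator (G ⧸ N))) :
    ∃ M : Subgroup G, M.Normal ∧ N ≤ M ∧ commutator G ≤ M ∧ ∃ k, M.lowerCentralSeries k ≤ N := by
  refine ⟨commutator G ⊔ N, inferInstance, le_sup_right, le_sup_left, ?_⟩
  rw [Subgroup.isNilpotent_iff_lowerCentralSeries] at h
  obtain ⟨k, hk⟩ := h
  refine ⟨k, ?_⟩
  have h1 : (commutator G ⊔ N).map (QuotientGroup.mk' N) = commutator (G ⧸ N) := by
    rw [Subgroup.map_sup, (Subgroup.map_eq_bot_iff N).2 (by rw [QuotientGroup.ker_mk']), sup_bot_eq,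
      commutator_def, map_commutator, ← MonoidHom.range_eq_map, QuotientGroup.range_mk', commutator_def]
  have h2 : ((commutator G ⊔ N).lowerCentralSeries k).map (QuotientGroup.mk' N) = ⊥ := by
    rw [map_lowerCentralSeries, h1, hk]
  rwa [Subgroup.map_eq_bot_iff, QuotientGroup.ker_mk'] at h2

end Cfsg.Agent.Lib.FpfQuot
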