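import Cfsg.Agent.Lib.ActSemi
import Cfsg.Agent.Lib.FpfQuot

/-!
Fixed-point-free coprime actions: quotients, Sylow subgroups, nilpotency criterion (helper59).
-/

set_option autoImplicit false

namespace Cfsg.Agent.Lib.FpfCop

open Subgroup Cfsg Cfsg.Agent.Lib.ActSemi Cfsg.Agent.Lib.SubgroupTools
open scoped commutatorElement

universe u v

variable {G : Type u} {A : Type v} [Group G] [Finite G] [Group A] [Finite A]

omit [Finite A] in
/-- a fixed-point-free `p`-group of operators acts on a `p'`-group -/
theorem not_dvd_of_fpf (φ : A →* MulAut G) {p : ℕ} [hp : Fact p.Prime] (hA : IsPGroup p A)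
    (hfpf : ∀ g, (∀ a, φ a g = g) → g = 1) : ¬ p ∣ Nat.card G := by
  intro hdvd
  let _ : MulAction A G := MulAction.compHom G φ
  have hsm : ∀ (a : A) (g : G), a • g = φ a g := fun a g => rfl
  obtain ⟨b, hb, hb1⟩ := hA.exists_fixed_point_of_prime_dvd_card_of_fixed_point G hdvd (a := 1)
    (by
      intro a
      rw [hsm, map_one])
  exact hb1 (hfpf b (fun a => hb a)).symm

/-- fixed-point-free coprime actions are fixed-point-free on quotients -/
theorem quot_fpf (φ : A →* MulAut G) (hcop : (Nat.card A).Coprime (Nat.card G))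
    (hA : Group.IsSolvable A ∨ Group.IsSolvable G) (hfpf : ∀ g, (∀ a, φ a g = g) → g = 1)
    (N : Subgroup G) [N.Normal] (hN : ∀ a, ∀ x ∈ N, φ a x ∈ N) (ψ : A →* MulAut (G ⧸ N))
    (hψ : ∀ a (g : G), ψ a (g : G ⧸ N) = ((φ a g : G) : G ⧸ N)) :
    ∀ x, (∀ a, ψ a x = x) → x = 1 := by
  intro x
  induction x using QuotientGroup.induction_on with | H g => ?_
  intro h
  obtain ⟨d, hd, hc⟩ := CoprimeAction.exists_mul_mem_centralizer (A := KA φ) (D := up φ N)
    (KA_le_normalizer_up φ hN) (by
      rw [card_KA, card_up]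
      exact hcop.coprime_dvd_right (Subgroup.card_subgroup_dvd_card N))
    (by
      rcases hA with h | h
      · left
        exact Group.isSolvable_of_surjective
          (f := (SemidirectProduct.inr : A →* G ⋊[φ] A).rangeRestrict)
          (MonoidHom.rangeRestrict_surjective _)
      · right
        have h1 : Group.IsSolvable N := inferInstance
        exact Group.isSolvable_of_surjective
          (f := ((SemidirectProduct.inl : G →* G ⋊[φ] A).subgroupMap N))
          (MonoidHom.subgroupMap_surjective _ _))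
    (SemidirectProduct.inl g) (by
      rintro _ ⟨a, rfl⟩
      rw [conj_inl, ← map_inv, ← map_mul]
      rw [inl_mem_up, ← QuotientGroup.eq, ← hψ]
      exact (h a).symm)
  obtain ⟨d, hd, rfl⟩ := hd
  have h1 : g * d = 1 := by
    apply hfpf
    intro a
    have h2 := mem_centralizer_iff.1 hc (SemidirectProduct.inr a) ⟨a, rfl⟩
    rw [← map_mul] at h2
    apply SemidirectProduct.inl_injective (φ := φ)
    rw [← conj_inl, h2]
    group
  rw [QuotientGroup.eq_one_iff, eq_inv_of_mul_eq_one_left h1]
  exact inv_mem hd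

/-- `K` is nilpotent if `K/F(K)` is nilpotent and `F(K)` normalizes a Sylow subgroup for every
prime. -/
theorem isNilpotent_of_fitting {K : Type u} [Group K] [Finite K]
    (hq : ∃ n, (⊤ : Subgroup K).lowerCentralSeries n ≤ fittingSubgroup K)
    (hS : ∀ t : ℕ, t.Prime → ∃ T : Subgroup K, IsPGroup t T ∧ ¬ t ∣ T.index ∧
      ∀ q : ℕ, q.Prime → q ≠ t → ⁅pCore q K, T⁆ = ⊥) : Group.IsNilpotent K := by
  have hFn : (fittingSubgroup K).Normal := Lib.Fitting.normal_fittingSubgroup
  obtain ⟨n, hn⟩ := hq
  have hQn : Group.IsNilpotent (K ⧸ fittingSubgroup K) := by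
    have h1 := Lib.FitRed.isNilpotent_map_of_lcs hn
    rw [← MonoidHom.range_eq_map, QuotientGroup.range_mk'] at h1
    exact (Group.isNilpotent_congr (Subgroup.topEquiv (G := K ⧸ fittingSubgroup K))).1 h1
  refine ((Group.isNilpotent_of_finite_tfae (G := K)).out 0 3).mpr ?_
  intro t ht P
  obtain ⟨T, hTp, hTi, hTc⟩ := hS t ht.out
  let P₀ : Sylow t K := hTp.toSylow hTi
  have hP₀ : (P₀ : Subgroup K) = T := rfl
  suffices hTn : T.Normal by
    have h1 : (P₀ : Subgroup K).Normal := hTn
    have := Sylow.unique_of_normal P₀ h1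
    rw [Subsingleton.elim P P₀]
    exact h1
  -- `F(K)` normalizes `T`
  have hFT : fittingSubgroup K ≤ normalizer (T : Set K) := by
    rw [Lib.Fitting.fittingSubgroup_eq_iSup_pCore]
    refine iSup_le fun q => ?_
    by_cases hqt : (q : ℕ) = t
    · have h1 : pCore (q : ℕ) K ≤ T := by
        rw [hqt]
        have h2 := Lib.Fitting.isPGroup_pCore (G := K) t
        have h3 : (pCore t K).Normal := Lib.Fitting.normal_pCore t
        have h4 : IsPGroup t (T ⊔ pCore t K : Subgroup K) := hTp.to_sup_of_normal_right h2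
        have h5 := P₀.is_maximal' h4 le_sup_left
        rw [hP₀] at h5
        rw [← h5]
        exact le_sup_right
      exact h1.trans le_normalizer
    · have h1 := hTc q q.2 hqt
      rw [commutator_eq_bot_iff_le_centralizer] at h1
      exact h1.trans (centralizer_le_normalizer _)
  set M := T ⊔ fittingSubgroup K with hM
  have hMT : M ≤ normalizer (T : Set K) := sup_le le_normalizer hFT
  have hMn : M.Normal := by
    let π := QuotientGroup.mk' (fittingSubgroup K)
    have hπ : Function.Surjective π := QuotientGroup.mk'_surjective _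
    have h1 : M = (T.map π).comap π := by
      rw [Subgroup.comap_map_eq, QuotientGroup.ker_mk']
    have h2 : (T.map π).Normal := by
      have h3 := ((Group.isNilpotent_of_finite_tfae (G := K ⧸ fittingSubgroup K)).out 0 3).mp hQn
      have h4 : ¬ t ∣ (T.map π).index := by
        intro h5
        exact hTi (h5.trans (T.index_map_dvd hπ))
      have h5 := h3 t ht ((hTp.map π).toSylow h4)
      exact h5
    rw [h1]
    exact h2.comap π
  have hTM : T ≤ M := le_sup_left
  have h1 : T.subgroupOf M ≤ pCore t M := by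
    apply Lib.Fitting.le_pCore t
    · exact normal_subgroupOf_iff_le_normalizer hTM |>.2 hMT
    · exact hTp.comap_subtype
  have hc : (pCore t M).Characteristic := Lib.FitRed.characteristic_pCore M t
  have h2 : ((pCore t M).map M.subtype).Normal := inferInstance
  have h3 : T ≤ (pCore t M).map M.subtype := by
    intro x hx
    exact ⟨⟨x, hTM hx⟩, h1 hx, rfl⟩
  have h4 := P₀.is_maximal' ((Lib.Fitting.isPGroup_pCore (G := M) t).map M.subtype) h3
  rw [hP₀] at h4
  rw [← h4]
  exact h2

end Cfsg.Agent.Lib.FpfCop
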