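import Cfsg.Agent.Lib.Ward
import Cfsg.Agent.Lib.FpfCop

/-!
Ward's theorem, the local part in terms of an external action (helper59).
-/

set_option autoImplicit false

namespace Cfsg.Agent.Lib.Ward2

open Module Subgroup Cfsg Cfsg.Agent.Lib.ActSemi Cfsg.Agent.Lib.SubgroupTools
open scoped commutatorElement

universe u v w

/-- the action of the semidirect product on a module -/
theorem exists_lift {K A : Type*} [Group K] [Group A] {M : Type*} [Monoid M] (φ : A →* MulAut K)
    (h : K →* M) (s : A →* M) (hsh : ∀ a g, s a * h g = h (φ a g) * s a) :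
    ∃ H : (K ⋊[φ] A) →* M, (∀ g, H (SemidirectProduct.inl g) = h g) ∧
      ∀ a, H (SemidirectProduct.inr a) = s a := by
  let L : (K ⋊[φ] A) →* Mˣ := SemidirectProduct.lift h.toHomUnits s.toHomUnits (by
    intro a
    ext g
    change h (φ a g) = s a * h g * ((s.toHomUnits a)⁻¹ : Mˣ)
    rw [hsh, mul_assoc]
    have : s a = ((s.toHomUnits a : Mˣ) : M) := rfl
    rw [this, Units.mul_inv, mul_one])
  refine ⟨(Units.coeHom M).comp L, ?_, ?_⟩
  · intro g
    rw [MonoidHom.comp_apply, SemidirectProduct.lift_inl]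
    rfl
  · intro a
    rw [MonoidHom.comp_apply, SemidirectProduct.lift_inr]
    rfl

theorem conj_inl_inl {K A : Type*} [Group K] [Group A] (φ : A →* MulAut K) (g x : K) :
    (SemidirectProduct.inl g : K ⋊[φ] A) * SemidirectProduct.inl x * (SemidirectProduct.inl g)⁻¹
      = SemidirectProduct.inl (g * x * g⁻¹) := by
  rw [map_mul, map_mul, map_inv]

/-- Ward's local theorem: a faithful module for `K` on which `∑ a = 0` forces `[O_q(K), T] = 1`. -/
theorem nilp_of_rep {K : Type u} {A : Type v} [Group K] [Finite K] [Group A] [Fintype A]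
    (hKs : Group.IsSolvable K) (φ : A →* MulAut K) {p : ℕ} (hp : p.Prime)
    (hAab : ∀ a b : A, a * b = b * a) (hAexp : ∀ a : A, a ^ p = 1) (hAc : Nat.card A = p ^ 2)
    (hfix : ∀ g, (∀ a, φ a g = g) → g = 1)
    {k : Type w} [Field k] [IsAlgClosed k] {r : ℕ} (hr : r.Prime) [CharP k r]
    {W : Type*} [AddCommGroup W] [Module k W] [FiniteDimensional k W]
    (h : K →* Module.End k W) (s : A →* Module.End k W) (hinj : ∀ g, h g = 1 → g = 1)
    (hsh : ∀ a g, s a * h g = h (φ a g) * s a) (hsum : ∑ a, s a = 0)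
    (hrK : pCore r K = ⊥)
    (hq : ∃ n, (⊤ : Subgroup K).lowerCentralSeries n ≤ fittingSubgroup K) :
    Group.IsNilpotent K := by
  classical
  have hpf := Fact.mk hp
  have hAp : IsPGroup p A := IsPGroup.of_card hAc
  have hpK : ¬ p ∣ Nat.card K := FpfCop.not_dvd_of_fpf φ hAp hfix
  have hcop : (Nat.card A).Coprime (Nat.card K) := by
    rw [hAc]
    exact Nat.Coprime.pow_left 2 ((Nat.Prime.coprime_iff_not_dvd hp).2 hpK)
  obtain ⟨H, hH1, hH2⟩ := exists_lift φ h s hsh
  refine FpfCop.isNilpotent_of_fitting hq ?_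
  intro t ht
  have htf := Fact.mk ht
  obtain ⟨T, hTp, hTi, hTA⟩ := exists_invariant_sylow φ hcop (Or.inr hKs) t
  refine ⟨T, hTp, hTi, ?_⟩
  intro q hqp hqt
  by_contra hne
  have hqf := Fact.mk hqp
  have hqr : q ≠ r := by
    rintro rfl
    rw [hrK, commutator_bot_left] at hne
    exact hne rfl
  have hKGn := KG_normal φ
  have hchar : (pCore q K).Characteristic := FitRed.characteristic_pCore K q
  have hfin : Fintype (KA φ) := Fintype.ofFinite _
  refine Ward.false_of_config (Γ := K ⋊[φ] A) H (KG φ) (KA φ) (up φ (pCore q K)) (up φ T)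
    ?_ ?_ ?_ hp ?_ ?_ ?_ ?_ ?_ hqp ht hqt ?_ ?_ (up_le φ _) ?_ ?_ ?_ (up_le φ _) ?_ ?_
  · exact Group.isSolvable_of_surjective
      (f := (SemidirectProduct.inl : K →* K ⋊[φ] A).rangeRestrict)
      (MonoidHom.rangeRestrict_surjective _)
  · rw [normalizer_eq_top]; exact le_top
  · rintro _ ⟨x, rfl⟩ hx
    rw [hH1] at hx
    rw [hinj x hx, map_one]
  · refine ⟨?_, ?_⟩
    · refine ⟨⟨?_⟩⟩
      rintro ⟨_, x, rfl⟩ ⟨_, y, rfl⟩
      apply Subtype.ext
      change SemidirectProduct.inr x * SemidirectProduct.inr y =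
        SemidirectProduct.inr y * SemidirectProduct.inr x
      rw [← map_mul, ← map_mul, hAab]
    · rintro _ ⟨x, rfl⟩
      rw [← map_pow, hAexp, map_one]
  · rw [card_KA, hAc]
  · rw [card_KG]; exact hpK
  · rw [eq_bot_iff]
    rintro _ ⟨⟨x, rfl⟩, hx⟩
    rw [mem_bot]
    have : x = 1 := by
      apply hfix
      intro a
      have h2 := mem_centralizer_iff.1 hx (SemidirectProduct.inr a) ⟨a, rfl⟩
      apply SemidirectProduct.inl_injective (φ := φ)
      rw [← conj_inl, h2]
      group
    rw [this, map_one]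
  · intro w
    have h1 : ∑ a : KA φ, H (a : K ⋊[φ] A) w = ∑ a : A, s a w := by
      let e : A ≃ KA φ := (MonoidHom.ofInjective
        (SemidirectProduct.inr_injective (φ := φ))).toEquiv
      have he : ∀ a : A, ((e a : KA φ) : K ⋊[φ] A) = SemidirectProduct.inr a := fun a => rfl
      symm
      exact Fintype.sum_equiv e (fun a : A => s a w) (fun a : KA φ => H (a : K ⋊[φ] A) w)
        (fun a => by rw [he, hH2])
    rw [h1]
    have h3 := congrArg (fun f : Module.End k W => f w) hsum
    simpa [LinearMap.sum_apply] using h3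
  · intro h0
    rw [CharP.cast_eq_zero_iff k r] at h0
    exact hqr ((Nat.prime_dvd_prime_iff_eq hr hqp).1 h0).symm
  · exact (Fitting.isPGroup_pCore (G := K) q).map _
  · rw [le_normalizer_iff]
    rintro _ ⟨g, rfl⟩ _ ⟨x, hx, rfl⟩
    rw [conj_inl_inl]
    have hn : (pCore q K).Normal := inferInstance
    exact (inl_mem_up φ).2 (hn.conj_mem x hx g)
  · exact KA_le_normalizer_up φ fun a x hx => (Subgroup.characteristic_iff_le_comap.1 hchar (φ a)) hx
  · exact hTp.map _
  · exact KA_le_normalizer_up φ hTA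
  · intro h0
    apply hne
    rw [up, up, ← map_commutator, Subgroup.map_eq_bot_iff_of_injective] at h0
    · exact h0
    · exact SemidirectProduct.inl_injective

end Cfsg.Agent.Lib.Ward2
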