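import Cfsg.Agent.Lib.FpfPQ3
import Cfsg.Agent.Lib.Ward2

/-!
Fixed-point-free action of nonabelian groups of order `pq`: reduction to the two cases (helper59).
-/

set_option autoImplicit false

namespace Cfsg.Agent.Lib.FpfPQ4

open Module Subgroup Cfsg Cfsg.Agent.Lib.WtGroup
  Cfsg.Agent.Lib.Weights Cfsg.Agent.Lib.CoprimeAction Cfsg.Agent.Lib.CoprimeAction2
  Cfsg.Agent.Lib.SubgroupTools Cfsg.Agent.Lib.Ward Cfsg.Agent.Lib.FpfPQ3 Cfsg.Agent.Lib.ActSemi
open scoped commutatorElement Pointwise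

universe u v w

theorem false_of_config {Γ : Type u} [Group Γ] [Finite Γ] {k : Type v} {W : Type w} [Field k]
    [IsAlgClosed k] [AddCommGroup W] [Module k W] [FiniteDimensional k W]
    (H : Γ →* Module.End k W) (K A Q₀ T₀ : Subgroup Γ) [Fintype A] (hKs : Group.IsSolvable K)
    (hAK : A ≤ normalizer (K : Set Γ)) (hinj : ∀ x ∈ K, H x = 1 → x = 1) {a v : Γ} {r s : ℕ}
    (hPQ : PQ A a v r s) (hv : orderOf v = s)
    (hcop : (Nat.card A).Coprime (Nat.card K)) (hfix : K ⊓ centralizer (A : Set Γ) = ⊥)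
    (hsum : ∀ w : W, ∑ a : A, H (a : Γ) w = 0)
    {q t : ℕ} (hq : q.Prime) (ht : t.Prime) (hqt : q ≠ t) (hqk : (q : k) ≠ 0)
    (hkA : (Nat.card A : k) ≠ 0)
    (hQ₀ : IsPGroup q Q₀) (hQ₀K : Q₀ ≤ K) (hKQ₀ : K ≤ normalizer (Q₀ : Set Γ))
    (hAQ₀ : A ≤ normalizer (Q₀ : Set Γ)) (hT₀ : IsPGroup t T₀) (hT₀K : T₀ ≤ K)
    (hAT₀ : A ≤ normalizer (T₀ : Set Γ)) (hne : ⁅Q₀, T₀⁆ ≠ ⊥) : False := by
  classical
  have hqf := Fact.mk hq
  have htf := Fact.mk ht
  have hsf := Fact.mk hPQ.hs
  have hcopA : ∀ S L : Subgroup Γ, S ≤ A → L ≤ K → (Nat.card S).Coprime (Nat.card L) :=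
    fun S L hS hL => Nat.Coprime.coprime_dvd_left (card_dvd_of_le hS)
      (Nat.Coprime.coprime_dvd_right (card_dvd_of_le hL) hcop)
  have hsolvle : ∀ L : Subgroup Γ, L ≤ K → Group.IsSolvable L := fun L hL => isSolvable_of_le hL hKs
  have hfixle : ∀ L : Subgroup Γ, L ≤ K → L ⊓ centralizer (A : Set Γ) = ⊥ := by
    intro L hL
    rw [eq_bot_iff, ← hfix]
    exact inf_le_inf_right _ hL
  -- minimal `T`
  obtain ⟨T, hTmin⟩ := (Set.toFinite {T : Subgroup Γ | T ≤ T₀ ∧ A ≤ normalizer (T : Set Γ) ∧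
    ⁅Q₀, T⁆ ≠ ⊥}).exists_minimal ⟨T₀, le_rfl, hAT₀, hne⟩
  obtain ⟨hTT₀, hAT, hQTne⟩ := hTmin.prop
  have hTp : IsPGroup t T := hT₀.to_le hTT₀
  have hTK : T ≤ K := hTT₀.trans hT₀K
  have hTab : ⁅T, T⁆ ≤ centralizer (Q₀ : Set Γ) := by
    by_contra hcon
    have h1 : ⁅T, T⁆ ≤ T := le_normalizer_iff_commutator_le_left.mp le_normalizer
    have h2 : ⁅Q₀, ⁅T, T⁆⁆ ≠ ⊥ := by
      intro h
      apply hcon
      rw [commutator_comm] at h
      exact commutator_eq_bot_iff_le_centralizer.1 h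
    have h3 := hTmin.2 (y := ⁅T, T⁆) ⟨h1.trans hTT₀,
      Lib.H32PSolv.le_normalizer_commutator hAT hAT, h2⟩ h1
    have h4 : ⁅T, T⁆ = T := le_antisymm h1 h3
    have hnt : Nontrivial T := by
      rw [nontrivial_iff_ne_bot]
      rintro rfl
      exact hQTne (commutator_bot_right _)
    have hTs := hsolvle T hTK
    have h5 : _root_.commutator T < ⊤ := Group.IsSolvable.commutator_lt_top_of_nontrivial T
    apply h5.ne
    rw [← T.map_subtype_commutator] at h4
    have h6 : (_root_.commutator T).map T.subtype = (⊤ : Subgroup T).map T.subtype := by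
      rw [h4, ← MonoidHom.range_eq_map, range_subtype]
    exact Subgroup.map_injective T.subtype_injective h6
  -- minimal `Q`
  obtain ⟨Q, hQmin⟩ := (Set.toFinite {Q : Subgroup Γ | Q ≤ Q₀ ∧ A ≤ normalizer (Q : Set Γ) ∧
    T ≤ normalizer (Q : Set Γ) ∧ ⁅Q, T⁆ ≠ ⊥}).exists_minimal
      ⟨Q₀, le_rfl, hAQ₀, hTK.trans hKQ₀, hQTne⟩
  obtain ⟨hQQ₀, hAQ, hTQ, hQTne'⟩ := hQmin.prop
  have hmin : ∀ R : Subgroup Γ, R < Q → A ≤ normalizer (R : Set Γ) → T ≤ normalizer (R : Set Γ) →
      ⁅R, T⁆ = ⊥ := by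
    intro R hR hAR hTR
    by_contra h
    have h1 := hQmin.2 (y := R) ⟨hR.le.trans hQQ₀, hAR, hTR, h⟩ hR.le
    exact hR.not_ge h1
  have hQp : IsPGroup q Q := hQ₀.to_le hQQ₀
  have hQK : Q ≤ K := hQQ₀.trans hQ₀K
  have hcTQ : (Nat.card T).Coprime (Nat.card Q) :=
    IsPGroup.coprime_card_of_ne t q hqt.symm _ _ hTp hQp
  have hQT : ⁅Q, T⁆ = Q := by
    have hle : ⁅Q, T⁆ ≤ Q := le_normalizer_iff_commutator_le_left.mp hTQ
    by_contra hneq
    have hlt : ⁅Q, T⁆ < Q := lt_of_le_of_ne hle hneq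
    have h1 := hmin _ hlt (Lib.H32PSolv.le_normalizer_commutator hAQ hAT)
      (normalizer_commutator_ge_right Q T)
    exact hQTne' (commutator_eq_bot_of_commutator_commutator hTQ hcTQ
      (Or.inr (hsolvle Q hQK)) h1)
  have hQne : Q ≠ ⊥ := by
    rintro rfl
    exact hQTne' (commutator_bot_left _)
  -- the fixed points of `a`
  have hzaK : K ⊓ centralizer {a} ≤ K := inf_le_left
  have hnil : Group.IsNilpotent (K ⊓ centralizer {a} : Subgroup Γ) := by
    have hvn : zpowers v ≤ normalizer ((K ⊓ centralizer {a} : Subgroup Γ) : Set Γ) := by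
      rw [le_normalizer_iff]
      intro g hg x hx
      have hgA : g ∈ A := (zpowers_le.2 hPQ.hvA) hg
      have hgn : g ∈ normalizer ((zpowers a : Subgroup Γ) : Set Γ) := by
        have h1 : (zpowers a).map (MulAut.conj v).toMonoidHom ≤ zpowers a := by
          rintro _ ⟨z, hz, rfl⟩
          exact hPQ.hva z hz
        have h2 : (zpowers a).map (MulAut.conj v).toMonoidHom = zpowers a :=
          eq_of_le_of_card_ge h1 (by rw [card_map_of_injective (MulAut.conj v).injective])
        have h3 : v ∈ normalizer ((zpowers a : Subgroup Γ) : Set Γ) := by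
          rw [mem_normalizer_iff]
          intro z
          constructor
          · exact hPQ.hva z
          · intro hz
            rw [← h2] at hz
            obtain ⟨z', hz', hzz⟩ := hz
            have h4 : z' = z := (MulAut.conj v).injective hzz
            rw [← h4]; exact hz'
        exact (zpowers_le.2 h3) hg
      refine mem_inf.2 ⟨(le_normalizer_iff.1 hAK) g hgA x hx.1, ?_⟩
      rw [mem_centralizer_singleton_iff]
      have h1 : g⁻¹ * a * g ∈ zpowers a := conj_mem_of_normalizer hgn (mem_zpowers a)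
      have hxa : Commute x a := mem_centralizer_singleton_iff.1 hx.2
      have h2 : Commute x (g⁻¹ * a * g) := by
        obtain ⟨i, hi⟩ := mem_zpowers_iff.1 h1
        rw [← hi]
        exact hxa.zpow_right i
      have h3 : a = g * (g⁻¹ * a * g) * g⁻¹ := by group
      calc g * x * g⁻¹ * a = g * (x * (g⁻¹ * a * g)) * g⁻¹ := by group
        _ = g * ((g⁻¹ * a * g) * x) * g⁻¹ := by rw [h2.eq]
        _ = a * (g * x * g⁻¹) := by group
    refine Lib.SolvFPF.isNilpotent_of_normalizer (R := zpowers v) (hsolvle _ inf_le_left) hvn ?_ ?_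
    · rw [Nat.card_zpowers, hv]; exact hPQ.hs
    · rw [eq_bot_iff]
      intro x hx
      have h1 : A ≤ centralizer {x} := by
        apply hPQ.hAgen
        · rw [mem_centralizer_singleton_iff]
          exact (mem_centralizer_singleton_iff.1 hx.1.2).symm
        · rw [mem_centralizer_singleton_iff]
          exact mem_centralizer_iff.1 hx.2 v (mem_zpowers v)
      have h2 : x ∈ K ⊓ centralizer (A : Set Γ) := by
        refine ⟨hx.1.1, ?_⟩
        change x ∈ centralizer (A : Set Γ)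
        rw [mem_centralizer_iff]
        intro g hg
        exact mem_centralizer_singleton_iff.1 (h1 hg)
      rw [hfix] at h2
      exact h2
  have hCa : ∀ t ∈ T, Commute t a → ∀ y ∈ Q, Commute y a → Commute t y := by
    intro x hx hxa y hy hya
    refine Lib.H23Nilp.commute_of_coprime_of_mem hnil
      ⟨hTK hx, mem_centralizer_singleton_iff.2 hxa⟩
      ⟨hQK hy, mem_centralizer_singleton_iff.2 hya⟩ ?_
    have h1 : (Nat.card (zpowers x)).Coprime (Nat.card (zpowers y)) :=
      Nat.Coprime.coprime_dvd_left (card_dvd_of_le (zpowers_le.2 hx))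
        (Nat.Coprime.coprime_dvd_right (card_dvd_of_le (zpowers_le.2 hy)) hcTQ)
    rwa [Nat.card_zpowers, Nat.card_zpowers] at h1
  have hTs := hsolvle T hTK
  by_cases hDb : ⁅Q, Q⁆ = ⊥
  · exact abelian_case H hPQ hQp hAQ hAT hTQ (fun x hx => hinj x (hQK hx)) hsum (hfixle Q hQK)
      (hfixle T hTK) (hcopA A Q le_rfl hQK) (hcopA A T le_rfl hTK) hcTQ hTs hQT hqk hDb hQne hCa
  · set D : Subgroup Γ := ⁅Q, Q⁆ with hD
    have hDQ : D ≤ Q := le_normalizer_iff_commutator_le_left.mp le_normalizer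
    have hnt : Nontrivial Q := (nontrivial_iff_ne_bot Q).2 hQne
    have hDlt : D < Q := by
      have hs := hsolvle Q hQK
      have h1 : _root_.commutator Q < ⊤ := Group.IsSolvable.commutator_lt_top_of_nontrivial Q
      refine lt_of_le_of_ne hDQ ?_
      intro h2
      apply h1.ne
      rw [hD, ← Q.map_subtype_commutator] at h2
      have h3 : (_root_.commutator Q).map Q.subtype = (⊤ : Subgroup Q).map Q.subtype := by
        rw [h2, ← MonoidHom.range_eq_map, range_subtype]
      exact Subgroup.map_injective Q.subtype_injective h3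
    have hAD : A ≤ normalizer (D : Set Γ) := Lib.H32PSolv.le_normalizer_commutator hAQ hAQ
    have hTDn : T ≤ normalizer (D : Set Γ) := Lib.H32PSolv.le_normalizer_commutator hTQ hTQ
    have hTD : T ≤ centralizer (D : Set Γ) := by
      have h1 := hmin D hDlt hAD hTDn
      rw [commutator_comm, commutator_eq_bot_iff_le_centralizer] at h1
      exact h1
    have hQD : Q ≤ centralizer (D : Set Γ) := le_centralizer_of_commutator_eq hQT
      (Lib.H32PSolv.le_normalizer_commutator le_normalizer le_normalizer) hTD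
    have hDc : ∀ z ∈ D, ∀ y ∈ Q, Commute y z := fun z hz y hy =>
      (mem_centralizer_iff.1 (hQD hy) z hz).symm
    have hCT : Q ⊓ centralizer (T : Set Γ) ≤ D := mem_commutator_of_centralizer hTQ hQT hcTQ
    have hinvle : ∀ R : Subgroup Γ, R < Q → A ≤ normalizer (R : Set Γ) →
        T ≤ normalizer (R : Set Γ) → R ≤ D := by
      intro R hR hAR hTR
      have h1 := hmin R hR hAR hTR
      rw [commutator_eq_bot_iff_le_centralizer] at h1
      exact (le_inf hR.le h1).trans hCT
    have hZn : ∀ S : Subgroup Γ, S ≤ normalizer (Q : Set Γ) →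
        S ≤ normalizer ((Q ⊓ centralizer (Q : Set Γ) : Subgroup Γ) : Set Γ) := by
      intro S hS
      rw [le_normalizer_iff]
      intro g hg z hz
      refine mem_inf.2 ⟨(mem_normalizer_iff.mp (hS hg) z).mp hz.1, ?_⟩
      rw [mem_centralizer_iff]
      intro y hy
      have h1 : g⁻¹ * y * g ∈ Q := conj_mem_of_normalizer (hS hg) hy
      have h2 := mem_centralizer_iff.1 hz.2 _ h1
      calc y * (g * z * g⁻¹) = g * ((g⁻¹ * y * g) * z) * g⁻¹ := by group
        _ = g * (z * (g⁻¹ * y * g)) * g⁻¹ := by rw [h2]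
        _ = g * z * g⁻¹ * y := by group
    have hCZ : Q ⊓ centralizer (Q : Set Γ) ≤ D := by
      refine hinvle _ ?_ (hZn A hAQ) (hZn T hTQ)
      refine lt_of_le_of_ne inf_le_left ?_
      intro h
      apply hDb
      rw [hD, commutator_eq_bot_iff_le_centralizer]
      exact inf_eq_left.1 h
    have hQq : ∀ x ∈ Q, x ^ q ∈ D := by
      obtain ⟨h1, h2⟩ := ShultGross.frattini_map hQne hAQ
      obtain ⟨-, h3⟩ := ShultGross.frattini_map hQne hTQ
      intro x hx
      exact hinvle _ h1 h2 h3 ⟨⟨x, hx⟩ ^ q, HBBasic.pow_mem_frattini hQp ⟨x, hx⟩, rfl⟩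
    exact nonabelian_case H hPQ hQp hAQ hAT hTQ (fun x hx => hinj x (hQK hx)) hsum (hfixle Q hQK)
      (hfixle T hTK) (hcopA A Q le_rfl hQK) (hcopA A T le_rfl hTK) hcTQ hTs hQT hqk hkA hDb hCa
      hTD hDc (hTab.trans (centralizer_le (SetLike.coe_subset_coe.2 hQQ₀))) hCZ hQq

theorem PQ_map {A : Type u} {B : Type v} [Group A] [Group B] {a v : A} {r s : ℕ}
    (h : PQ (⊤ : Subgroup A) a v r s) (f : A →* B) (hf : Function.Injective f) :
    PQ f.range (f a) (f v) r s where
  hr := h.hr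
  hs := h.hs
  haA := ⟨a, rfl⟩
  hvA := ⟨v, rfl⟩
  ha1 := fun h1 => h.ha1 (hf (by rw [h1, map_one]))
  hv1 := fun h1 => h.hv1 (hf (by rw [h1, map_one]))
  card := by
    have h1 := Nat.card_congr (MonoidHom.ofInjective hf).toEquiv
    rw [← h1, ← h.card, Subgroup.card_top]
  hAgen := by
    intro S ha hv
    have h1 := h.hAgen (S.comap f) ha hv
    rintro _ ⟨x, rfl⟩
    exact h1 trivial
  hva := by
    intro x hx
    rw [← MonoidHom.map_zpowers] at hx ⊢
    obtain ⟨y, hy, rfl⟩ := hx
    exact ⟨v * y * v⁻¹, h.hva y hy, by rw [map_mul, map_mul, map_inv]⟩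
  hgen := by
    intro x hx hx1 S hv hxv
    rw [← MonoidHom.map_zpowers] at hx
    obtain ⟨y, hy, rfl⟩ := hx
    have h1 := h.hgen y hy (fun h2 => hx1 (by rw [h2, map_one])) (S.comap f) hv (by
      rw [mem_comap, map_mul, map_mul, map_inv]; exact hxv)
    rintro _ ⟨x, rfl⟩
    exact h1 trivial
  dich := by
    rintro _ ⟨g, rfl⟩ hg1
    rcases h.dich g trivial (fun h2 => hg1 (by rw [h2, map_one])) with h1 | ⟨x, hx, h1⟩
    · left
      rw [← MonoidHom.map_zpowers]
      exact ⟨a, h1, rfl⟩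
    · right
      refine ⟨f x, ?_, ?_⟩
      · rw [← MonoidHom.map_zpowers]
        exact ⟨x, hx, rfl⟩
      · rw [← MonoidHom.map_zpowers]
        exact ⟨_, h1, by rw [map_mul, map_mul, map_inv]⟩

/-- the structure of nonabelian groups of order `rs`, `s < r` -/
theorem exists_PQ {A : Type u} [Group A] [Finite A] {r s : ℕ} (hr : r.Prime) (hs : s.Prime)
    (hsr : s < r) (hA : Nat.card A = r * s) (hna : ¬ ∀ x y : A, x * y = y * x) :
    ∃ a v : A, PQ (⊤ : Subgroup A) a v r s ∧ orderOf v = s := by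
  have hrf := Fact.mk hr
  have hsf := Fact.mk hs
  obtain ⟨a, ha⟩ := exists_prime_orderOf_dvd_card' (G := A) r (by rw [hA]; exact Dvd.intro _ rfl)
  obtain ⟨v, hv⟩ := exists_prime_orderOf_dvd_card' (G := A) s (by
    rw [hA]; exact Dvd.intro_left _ rfl)
  have hNc : Nat.card (zpowers a) = r := by rw [Nat.card_zpowers, ha]
  have hidx : (zpowers a).index = s := by
    have h1 := Subgroup.card_mul_index (zpowers a)
    rw [hNc, hA] at h1
    exact Nat.eq_of_mul_eq_mul_left hr.pos h1
  have hN : (zpowers a).Normal := by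
    apply Subgroup.normal_of_index_eq_minFac_card
    rw [hidx, hA]
    apply le_antisymm
    · have hrs1 : r * s ≠ 1 := by
        intro h
        exact hr.ne_one (Nat.dvd_one.1 (h ▸ Dvd.intro _ rfl))
      have hgen : ∀ p : ℕ, p.Prime → p ∣ r * s → s ≤ p := ?_
      · exact hgen _ (Nat.minFac_prime hrs1) (Nat.minFac_dvd _)
      intro p hp hpd
      rcases (hp.dvd_mul).1 hpd with h1 | h1
      · rw [(Nat.prime_dvd_prime_iff_eq hp hr).1 h1]; exact hsr.le
      · rw [(Nat.prime_dvd_prime_iff_eq hp hs).1 h1]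
    · exact Nat.minFac_le_of_dvd hs.two_le (Dvd.intro_left _ rfl)
  have hAgen : ∀ S : Subgroup A, a ∈ S → v ∈ S → (⊤ : Subgroup A) ≤ S := by
    intro S haS hvS
    have h1 : r ∣ Nat.card S := by
      have := orderOf_dvd_natCard (⟨a, haS⟩ : S)
      rwa [← Subgroup.orderOf_coe, ha] at this
    have h2 : s ∣ Nat.card S := by
      have := orderOf_dvd_natCard (⟨v, hvS⟩ : S)
      rwa [← Subgroup.orderOf_coe, hv] at this
    have h3 : r * s ∣ Nat.card S :=
      Nat.Coprime.mul_dvd_of_dvd_of_dvd ((Nat.coprime_primes hr hs).2 hsr.ne') h1 h2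
    have h4 : S = ⊤ := Subgroup.eq_top_of_card_eq S (by
      rw [hA]
      exact Nat.dvd_antisymm (by rw [← hA]; exact Subgroup.card_subgroup_dvd_card S) h3)
    rw [h4]
  have hap : a ^ r = 1 := by rw [← ha, pow_orderOf_eq_one]
  have ha1 : a ≠ 1 := by
    rintro rfl
    rw [orderOf_one] at ha
    exact hr.ne_one ha.symm
  have hv1 : v ≠ 1 := by
    rintro rfl
    rw [orderOf_one] at hv
    exact hs.ne_one hv.symm
  -- no nontrivial element of `⟨a⟩` commutes with `v`
  have hfree : ∀ x ∈ zpowers a, x * v = v * x → x = 1 := by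
    intro x hx hxv
    by_contra hx1
    have h1 : a ∈ zpowers x := gen_of_mem hr hap hx hx1
    have h2 : a * v = v * a := by
      obtain ⟨i, hi⟩ := mem_zpowers_iff.1 h1
      have h3 : Commute x v := hxv
      rw [← hi]
      exact (h3.zpow_left i).eq
    apply hna
    have h3 : (⊤ : Subgroup A) ≤ centralizer {a} := by
      apply hAgen
      · rw [mem_centralizer_singleton_iff]
      · rw [mem_centralizer_singleton_iff]; exact h2.symm
    have h4 : (⊤ : Subgroup A) ≤ centralizer {v} := by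
      apply hAgen
      · rw [mem_centralizer_singleton_iff]; exact h2
      · rw [mem_centralizer_singleton_iff]
    intro x y
    have h5 : (⊤ : Subgroup A) ≤ centralizer {y} := by
      apply hAgen
      · rw [mem_centralizer_singleton_iff]
        exact (mem_centralizer_singleton_iff.1 (h3 (mem_top y))).symm
      · rw [mem_centralizer_singleton_iff]
        exact (mem_centralizer_singleton_iff.1 (h4 (mem_top y))).symm
    exact mem_centralizer_singleton_iff.1 (h5 (mem_top x))
  refine ⟨a, v, ⟨hr, hs, trivial, trivial, ha1, hv1, by rw [Subgroup.card_top, hA], hAgen,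
    fun x hx => hN.conj_mem x hx v, ?_, ?_⟩, hv⟩
  · intro x hx hx1 S hvS hxS
    apply hAgen S _ hvS
    have h1 : x * v * x⁻¹ * v⁻¹ ∈ S := mul_mem hxS (inv_mem hvS)
    have h2 : x * v * x⁻¹ * v⁻¹ ∈ zpowers a := by
      have h3 : x * v * x⁻¹ * v⁻¹ = x * (v * x⁻¹ * v⁻¹) := by group
      rw [h3]
      exact mul_mem hx (hN.conj_mem _ (inv_mem hx) v)
    have h3 : x * v * x⁻¹ * v⁻¹ ≠ 1 := by
      intro h
      apply hx1
      apply hfree x hx
      rw [mul_inv_eq_one, mul_inv_eq_iff_eq_mul] at h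
      exact h
    exact (zpowers_le.2 h1) (gen_of_mem hr hap h2 h3)
  · intro g _ hg1
    by_cases hgN : g ∈ zpowers a
    · left
      exact gen_of_mem hr hap hgN hg1
    · right
      have h1 : Nat.card (A ⧸ zpowers a) = s := by rw [← Subgroup.index_eq_card, hidx]
      have h2 : (v : A ⧸ zpowers a) ∈ zpowers (g : A ⧸ zpowers a) :=
        mem_zpowers_of_prime_card h1 (by rwa [Ne, QuotientGroup.eq_one_iff])
      obtain ⟨i, hi⟩ := mem_zpowers_iff.1 h2
      have h3 : g ^ i * v⁻¹ ∈ zpowers a := by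
        rw [← QuotientGroup.eq_one_iff, QuotientGroup.mk_mul, QuotientGroup.mk_zpow, hi,
          QuotientGroup.mk_inv, mul_inv_cancel]
      let f : zpowers a → zpowers a := fun x => ⟨x * v * (x : A)⁻¹ * v⁻¹, by
        have h3 : (x : A) * v * (x : A)⁻¹ * v⁻¹ = x * (v * (x : A)⁻¹ * v⁻¹) := by group
        rw [h3]
        exact mul_mem x.2 (hN.conj_mem _ (inv_mem x.2) v)⟩
      have hf : Function.Injective f := by
        intro x y hxy
        have h4 : (x : A) * v * (x : A)⁻¹ * v⁻¹ = y * v * (y : A)⁻¹ * v⁻¹ :=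
          congrArg Subtype.val hxy
        have h5 : (x : A) * v * (x : A)⁻¹ = y * v * (y : A)⁻¹ := mul_right_cancel h4
        have h6 := hfree ((y : A)⁻¹ * x) (mul_mem (inv_mem y.2) x.2) (by
          calc (y : A)⁻¹ * x * v = (y : A)⁻¹ * (x * v * (x : A)⁻¹) * x := by group
            _ = (y : A)⁻¹ * (y * v * (y : A)⁻¹) * x := by rw [h5]
            _ = v * ((y : A)⁻¹ * x) := by group)
        exact Subtype.ext (inv_mul_eq_one.1 h6).symm
      obtain ⟨x, hx⟩ := (Finite.injective_iff_surjective.1 hf) ⟨g ^ i * v⁻¹, h3⟩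
      have h4 : (x : A) * v * (x : A)⁻¹ * v⁻¹ = g ^ i * v⁻¹ := congrArg Subtype.val hx
      refine ⟨x, x.2, ?_⟩
      rw [mul_right_cancel h4]
      exact zpow_mem (mem_zpowers g) i

/-- the local theorem: a faithful module for `K` on which `∑ a = 0` forces `[O_q(K), T] = 1`. -/
theorem nilp_of_rep {K : Type u} {A : Type v} [Group K] [Finite K] [Group A] [Fintype A]
    (hKs : Group.IsSolvable K) (φ : A →* MulAut K) {a v : A} {p₁ p₂ : ℕ}
    (hPQ : PQ (⊤ : Subgroup A) a v p₁ p₂) (hv : orderOf v = p₂)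
    (hcop : (Nat.card A).Coprime (Nat.card K)) (hAs : Group.IsSolvable A ∨ Group.IsSolvable K)
    (hfix : ∀ g, (∀ a, φ a g = g) → g = 1)
    {k : Type w} [Field k] [IsAlgClosed k] {r : ℕ} (hr : r.Prime) [CharP k r]
    (hkA : (Nat.card A : k) ≠ 0)
    {W : Type*} [AddCommGroup W] [Module k W] [FiniteDimensional k W]
    (h : K →* Module.End k W) (s : A →* Module.End k W) (hinj : ∀ g, h g = 1 → g = 1)
    (hsh : ∀ a g, s a * h g = h (φ a g) * s a) (hsum : ∑ a, s a = 0)
    (hrK : pCore r K = ⊥)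
    (hq : ∃ n, (⊤ : Subgroup K).lowerCentralSeries n ≤ fittingSubgroup K) :
    Group.IsNilpotent K := by
  classical
  obtain ⟨H, hH1, hH2⟩ := Ward2.exists_lift φ h s hsh
  refine FpfCop.isNilpotent_of_fitting hq ?_
  intro t ht
  have htf := Fact.mk ht
  obtain ⟨T, hTp, hTi, hTA⟩ := exists_invariant_sylow φ hcop hAs t
  refine ⟨T, hTp, hTi, ?_⟩
  intro q hqp hqt
  by_contra hne
  have hqf := Fact.mk hqp
  have hqr : q ≠ r := by
    rintro rfl
    rw [hrK, commutator_bot_left] at hne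
    exact hne rfl
  have hKGn := KG_normal φ
  have hchar : (pCore q K).Characteristic := FitRed.characteristic_pCore K q
  have hfin : Fintype (KA φ) := Fintype.ofFinite _
  have hPQ' : PQ (KA φ) (SemidirectProduct.inr a : K ⋊[φ] A) (SemidirectProduct.inr v) p₁ p₂ :=
    PQ_map hPQ SemidirectProduct.inr SemidirectProduct.inr_injective
  refine false_of_config (Γ := K ⋊[φ] A) H (KG φ) (KA φ) (up φ (pCore q K)) (up φ T)
    ?_ ?_ ?_ hPQ' ?_ ?_ ?_ ?_ hqp ht hqt ?_ ?_ ?_ (up_le φ _) ?_ ?_ ?_ (up_le φ _) ?_ ?_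
  · exact Group.isSolvable_of_surjective
      (f := (SemidirectProduct.inl : K →* K ⋊[φ] A).rangeRestrict)
      (MonoidHom.rangeRestrict_surjective _)
  · rw [normalizer_eq_top]; exact le_top
  · rintro _ ⟨x, rfl⟩ hx
    rw [hH1] at hx
    rw [hinj x hx, map_one]
  · rw [orderOf_injective _ (SemidirectProduct.inr_injective (φ := φ)), hv]
  · rw [card_KA, card_KG]; exact hcop
  · rw [eq_bot_iff]
    rintro _ ⟨⟨x, rfl⟩, hx⟩
    rw [mem_bot]
    have : x = 1 := by
      apply hfix
      intro a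
      have h2 := mem_centralizer_iff.1 hx (SemidirectProduct.inr a) ⟨a, rfl⟩
      apply SemidirectProduct.inl_injective (φ := φ)
      rw [← conj_inl, h2]
      group
    rw [this, map_one]
  · intro w
    have h1 : ∑ a : KA φ, H (a : K ⋊[φ] A) w = ∑ a : A, s a w := by
      let e : A ≃ KA φ := (MonoidHom.ofInjective
        (SemidirectProduct.inr_injective (φ := φ))).toEquiv
      have he : ∀ a : A, ((e a : KA φ) : K ⋊[φ] A) = SemidirectProduct.inr a := fun a => rfl
      symm
      exact Fintype.sum_equiv e (fun a : A => s a w) (fun a : KA φ => H (a : K ⋊[φ] A) w)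
        (fun a => by rw [he, hH2])
    rw [h1]
    have h3 := congrArg (fun f : Module.End k W => f w) hsum
    simpa [LinearMap.sum_apply] using h3
  · intro h0
    rw [CharP.cast_eq_zero_iff k r] at h0
    exact hqr ((Nat.prime_dvd_prime_iff_eq hr hqp).1 h0).symm
  · rw [card_KA]; exact hkA
  · exact (Fitting.isPGroup_pCore (G := K) q).map _
  · rw [le_normalizer_iff]
    rintro _ ⟨g, rfl⟩ _ ⟨x, hx, rfl⟩
    rw [Ward2.conj_inl_inl]
    have hn : (pCore q K).Normal := inferInstance
    exact (inl_mem_up φ).2 (hn.conj_mem x hx g)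
  · exact KA_le_normalizer_up φ fun a x hx => (Subgroup.characteristic_iff_le_comap.1 hchar (φ a)) hx
  · exact hTp.map _
  · exact KA_le_normalizer_up φ hTA
  · intro h0
    apply hne
    rw [up, up, ← map_commutator, Subgroup.map_eq_bot_iff_of_injective] at h0
    · exact h0
    · exact SemidirectProduct.inl_injective

end Cfsg.Agent.Lib.FpfPQ4
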