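import Cfsg.Agent.Lib.MersLin5
import Cfsg.Agent.Lib.FpfPQ1
import Cfsg.Agent.Lib.FpfPQ4

/-!
Gross' theorem on fixed-point-free automorphisms of order `2^n` (helper59): the configuration.
-/

set_option autoImplicit false

namespace Cfsg.Agent.Lib.GrossA

open Module Subgroup Cfsg Cfsg.Agent.Lib.WtGroup
  Cfsg.Agent.Lib.Weights Cfsg.Agent.Lib.CoprimeAction Cfsg.Agent.Lib.CoprimeAction2
  Cfsg.Agent.Lib.SubgroupTools Cfsg.Agent.Lib.Ward Cfsg.Agent.Lib.FpfPQ3 Cfsg.Agent.Lib.ActSemi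
open scoped commutatorElement Pointwise

universe u v w

theorem eq_one_of_mersenne {q m l : ℕ} (hq : q.Prime) (hm : 0 < m) (h : 2 ^ l = q ^ m + 1) :
    m = 1 ∧ 2 ≤ l := by
  have hl2 : 2 ≤ l := by
    by_contra hcon
    have h1 : 2 ^ l ≤ 2 ^ 1 := Nat.pow_le_pow_right (by norm_num) (by omega)
    have h2 : 1 < q ^ m := Nat.one_lt_pow hm.ne' hq.one_lt
    omega
  refine ⟨?_, hl2⟩
  have h4 : 4 ∣ q ^ m + 1 := by
    rw [← h]
    exact pow_dvd_pow 2 hl2
  have hqodd : ¬ 2 ∣ q := by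
    intro h2
    have h3 : q = 2 := ((Nat.prime_dvd_prime_iff_eq Nat.prime_two hq).1 h2).symm
    rw [h3] at h4
    have h5 : 2 ∣ 2 ^ m := dvd_pow_self 2 hm.ne'
    have h6 : 2 ∣ 2 ^ m + 1 := (by norm_num : 2 ∣ 4).trans h4
    omega
  have hmodd : ¬ 2 ∣ m := by
    rintro ⟨j, rfl⟩
    rw [pow_mul] at h4
    have h5 : q ^ 2 % 4 = 1 := by
      have h6 : q % 4 = 1 ∨ q % 4 = 3 := by omega
      rcases h6 with h6 | h6 <;> simp [pow_two, Nat.mul_mod, h6]
    have h6 : (q ^ 2) ^ j % 4 = 1 := by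
      simp [Nat.pow_mod, h5]
    omega
  -- lifting the exponent
  have h5 : (2 : ℤ) ^ l ∣ (q : ℤ) ^ m - (-1) ^ m := by
    have h6 : Odd m := Nat.not_even_iff_odd.1 (fun h => hmodd h.two_dvd)
    rw [h6.neg_one_pow, sub_neg_eq_add]
    exact ⟨1, by rw [mul_one]; exact_mod_cast h.symm⟩
  have h6 : emultiplicity (2 : ℤ) ((q : ℤ) ^ m - (-1) ^ m) = emultiplicity (2 : ℤ) ((q : ℤ) - (-1)) :=
    emultiplicity_pow_sub_pow_of_prime (p := 2) Int.prime_two (by omega) (by omega) (by omega)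
  rw [pow_dvd_iff_le_emultiplicity, h6, ← pow_dvd_iff_le_emultiplicity, sub_neg_eq_add] at h5
  have h7 : 2 ^ l ∣ q + 1 := by exact_mod_cast h5
  have h8 := Nat.le_of_dvd (by omega) h7
  rw [h] at h8
  have h9 : q ^ m ≤ q ^ 1 := by rw [pow_one]; omega
  have h10 := (Nat.pow_le_pow_iff_right hq.one_lt).1 h9
  omega

section Main

variable {Γ : Type u} [Group Γ] [Finite Γ] {k : Type v} {W : Type w}
    [Field k] [IsAlgClosed k] [AddCommGroup W] [Module k W] [FiniteDimensional k W]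

theorem gen_stab {H : Γ →* Module.End k W} {A L : Subgroup Γ} [Fintype A]
    (hAL : A ≤ normalizer (L : Set Γ)) {χ : Γ → k} {v : W}
    (hsum : ∑ a : A, H (a : Γ) v = 0) (hv0 : v ≠ 0) (hv : IsWt H L χ v) {τ : Γ}
    (hτ : ∀ a ∈ A, a ≠ 1 → τ ∈ zpowers a) : τ ∈ stab L χ := by
  classical
  by_contra hcon
  have h1 := sum_stab_eq_zero H hAL hv hsum
  have h2 : (Finset.univ.filter fun a' : A => (a' : Γ) ∈ stab L χ) = {1} := by
    ext a'
    simp only [Finset.mem_filter, Finset.mem_univ, true_and, Finset.mem_singleton]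
    constructor
    · intro h
      by_contra h3
      exact hcon ((zpowers_le.2 h) (hτ a' a'.2 (fun h4 => h3 (Subtype.ext h4))))
    · rintro rfl
      exact one_mem _
  rw [h2, Finset.sum_singleton] at h1
  apply hv0
  simpa using h1

/-- the nonabelian case -/
theorem nonabelian_case (H : Γ →* Module.End k W) {A Q T : Subgroup Γ} [Fintype A] {σ τ : Γ}
    {n : ℕ} (hA : A = zpowers σ) (hn : 0 < n) (ho : orderOf σ = 2 ^ n)
    (hτσ : σ ^ 2 ^ (n - 1) = τ) {q t : ℕ} [hqf : Fact q.Prime] (ht : t.Prime) (ht2 : t ≠ 2)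
    (hQ : IsPGroup q Q) (hT : IsPGroup t T)
    (hAQ : A ≤ normalizer (Q : Set Γ)) (hAT : A ≤ normalizer (T : Set Γ))
    (hTQ : T ≤ normalizer (Q : Set Γ)) (hinj : ∀ x ∈ Q, H x = 1 → x = 1)
    (hsum : ∀ w : W, ∑ g : A, H (g : Γ) w = 0)
    (hcAQ : (Nat.card A).Coprime (Nat.card Q)) (hcTQ : (Nat.card T).Coprime (Nat.card Q))
    (hTτ : ⁅T, zpowers τ⁆ = T) (hQT : ⁅Q, T⁆ = Q) (hkq : (q : k) ≠ 0) (hk2 : (2 : k) ≠ 0)
    (hDne : ⁅Q, Q⁆ ≠ ⊥) (hTD : T ≤ centralizer ((⁅Q, Q⁆ : Subgroup Γ) : Set Γ))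
    (hDc : ∀ z ∈ ⁅Q, Q⁆, ∀ y ∈ Q, Commute y z) (hQq : ∀ x ∈ Q, x ^ q ∈ ⁅Q, Q⁆) : False := by
  classical
  have hq := hqf.out
  have htf := Fact.mk ht
  set D : Subgroup Γ := ⁅Q, Q⁆ with hD
  have hDQ : D ≤ Q := le_normalizer_iff_commutator_le_left.mp le_normalizer
  have hQs : Group.IsSolvable Q := by
    have : Group.IsNilpotent Q := hQ.isNilpotent
    infer_instance
  have hDs : Group.IsSolvable D := isSolvable_of_le hDQ hQs
  have hcomD : ∀ x ∈ Q, ∀ y ∈ Q, ⁅x, y⁆ ∈ D := fun x hx y hy => commutator_mem_commutator hx hy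
  have hAD : A ≤ normalizer (D : Set Γ) := Lib.H32PSolv.le_normalizer_commutator hAQ hAQ
  have hCT : Q ⊓ centralizer (T : Set Γ) ≤ D := mem_commutator_of_centralizer hTQ hQT hcTQ
  have hDq : ∀ z ∈ D, z ^ q = 1 := by
    have h1 : ∀ x ∈ Q, ∀ y ∈ Q, ∀ i : ℕ, ⁅x ^ i, y⁆ = ⁅x, y⁆ ^ i := by
      intro x hx y hy i
      induction i with
      | zero => simp
      | succ i ih' =>
        have h2 : ⁅x ^ (i + 1), y⁆ = x ^ i * ⁅x, y⁆ * (x ^ i)⁻¹ * ⁅x ^ i, y⁆ := by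
          rw [pow_succ]; simp only [commutatorElement_def]; group
        rw [h2, ih', (hDc _ (hcomD x hx y hy) _ (pow_mem hx i)).eq, mul_inv_cancel_right,
          pow_succ']
    let E : Subgroup Γ :=
      { carrier := {z | z ∈ D ∧ z ^ q = 1}
        one_mem' := ⟨one_mem _, one_pow _⟩
        mul_mem' := by
          rintro a b ⟨ha, ha'⟩ ⟨hb, hb'⟩
          exact ⟨mul_mem ha hb, by rw [(hDc b hb a (hDQ ha)).mul_pow, ha', hb', one_mul]⟩
        inv_mem' := by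
          rintro a ⟨ha, ha'⟩
          exact ⟨inv_mem ha, by rw [inv_pow, ha', inv_one]⟩ }
    have h2 : D ≤ E := by
      rw [hD, commutator_le]
      intro x hx y hy
      refine ⟨hcomD x hx y hy, ?_⟩
      rw [← h1 x hx y hy q, commutatorElement_eq_one_iff_commute]
      exact (hDc _ (hQq x hx) y hy).symm
    intro z hz
    exact (h2 hz).2
  -- a nontrivial weight of `D`
  obtain ⟨v₀, μ, hv₀, hμ, z₀, hz₀, hμz₀⟩ : ∃ (v : W) (χ : Γ → k), v ≠ 0 ∧ IsWt H D χ v ∧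
      ∃ z ∈ D, χ z ≠ 1 := by
    by_contra hcon
    push Not at hcon
    apply hDne
    rw [eq_bot_iff]
    intro z hz
    rw [mem_bot]
    apply hinj z (hDQ hz)
    ext w
    refine eq_on_of_weights H ⊤ D (fun _ _ _ _ => trivial) ?_ q hkq hDq (H z) ?_ w trivial
    · intro x hx y hy u _
      rw [← Module.End.mul_apply, ← Module.End.mul_apply, ← map_mul, ← map_mul,
        (hDc y hy x (hDQ hx)).eq]
    · intro v _ χ hv0 hv
      rw [hv z hz, hcon v χ hv0 hv z hz, one_smul]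
  have hμ1 : μ 1 = 1 := isWt_one hμ hv₀
  have hμm : ∀ x ∈ D, ∀ y ∈ D, μ (x * y) = μ x * μ y := fun x hx y hy => isWt_mul hμ hv₀ hx hy
  obtain ⟨hτ2, hτ1⟩ := ShultGross.order_pow_prime (σ := σ) Nat.prime_two hn ho
  rw [hτσ] at hτ2 hτ1
  have hσA : σ ∈ A := by rw [hA]; exact mem_zpowers σ
  have hτA : τ ∈ A := by rw [← hτσ]; exact pow_mem hσA _
  have hτmem : ∀ a ∈ A, a ≠ 1 → τ ∈ zpowers a := by
    intro a ha ha1
    rw [hA] at ha
    have := ShultGross.tau_mem Nat.prime_two hn ho ha ha1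
    rwa [hτσ] at this
  have hAab : ∀ a ∈ A, ∀ b ∈ A, Commute a b := by
    intro a ha b hb
    rw [hA] at ha hb
    obtain ⟨i, rfl⟩ := mem_zpowers_iff.1 ha
    obtain ⟨j, rfl⟩ := mem_zpowers_iff.1 hb
    exact Commute.zpow_zpow_self σ i j
  have hAc : Nat.card A = 2 ^ n := by rw [hA, Nat.card_zpowers, ho]
  set U : Subgroup Γ := A ⊓ stab D μ with hU
  have hUA : U ≤ A := inf_le_left
  have hUμ : U ≤ stab D μ := inf_le_right
  let _ : Fintype U := Fintype.ofFinite U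
  have hsumU : ∀ w, IsWt H D μ w → ∑ u : U, H (u : Γ) w = 0 :=
    sum_of_stab hAD (χ := μ) hsum U (fun g => Iff.rfl)
  have hτU : τ ∈ U := ⟨hτA, gen_stab hAD (hsum v₀) hv₀ hμ hτmem⟩
  obtain ⟨R, hR⟩ := SympSec.exists_radical (Q := Q) (Z := D) hDc le_rfl hμ1 hμm
  have hRQ : R ≤ Q := fun x hx => ((hR x).1 hx).1
  have hTμ : T ≤ stab D μ := by
    intro t ht
    have hc := hTD ht
    refine ⟨(centralizer_le_normalizer _) hc, fun x hx => ?_⟩
    have h1 := mem_centralizer_iff.1 hc x hx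
    rw [mul_assoc, h1, inv_mul_cancel_left]
  set X : Subgroup Γ := T ⊔ U with hX
  have hTX : T ≤ X := le_sup_left
  have hUX : U ≤ X := le_sup_right
  have hXQ : X ≤ normalizer (Q : Set Γ) := sup_le hTQ (hUA.trans hAQ)
  have hXμ : X ≤ stab D μ := sup_le hTμ hUμ
  obtain ⟨hDR, hQR, hXR⟩ := SympSec.radical_props hDQ hDc le_rfl hμ1 hXQ hXμ hR
  have hTR := hTX.trans hXR
  have hUR := hUX.trans hXR
  obtain ⟨M, _, _, _, ρ, π, e, hπ, hadd, hker, hρ, he, heμ, hnd, hinv⟩ :=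
    SympSec.exists_symp (q := q) hDQ hDc le_rfl hQq hμ1 hμm hXQ hXμ hR
  have hRs : Group.IsSolvable R := isSolvable_of_le hRQ hQs
  have hcardR : (Nat.card R : k) ≠ 0 := by
    intro h
    obtain ⟨m, hm⟩ := IsPGroup.iff_card.1 (hQ.to_le hRQ)
    rw [hm, Nat.cast_pow] at h
    exact pow_ne_zero m hkq h
  have hpowR : ∀ x ∈ R, x ^ Nat.card R = 1 := by
    intro x hx
    have h1 : (⟨x, hx⟩ : R) ^ Nat.card R = 1 := pow_card_eq_one'
    exact congrArg (Subtype.val : R → Γ) h1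
  -- `R` acts on the weight space by scalars
  set V : Submodule k W := wtSub H D μ with hV
  have hVQ : ∀ x ∈ Q, ∀ w ∈ V, H x w ∈ V := by
    intro x hx w hw z hz
    rw [← Module.End.mul_apply, ← map_mul, ← (hDc z hz x hx).eq, map_mul, Module.End.mul_apply,
      hw z hz, map_smul]
  have hVX : ∀ x ∈ X, ∀ w ∈ V, H x w ∈ V := by
    intro g hg w hw z hz
    have h1 := isWt_tw H hw (hXμ hg).1 z hz
    rw [h1, tw_apply, (hXμ hg).2 z hz]
  have hcomR : ∀ x ∈ R, ∀ y ∈ R, ∀ w ∈ V, H x (H y w) = H y (H x w) := by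
    intro x hx y hy w hw
    have h1 : x * y = ⁅x, y⁆ * (y * x) := by rw [commutatorElement_def]; group
    have h2 : H (y * x) w ∈ V := hVQ _ (mul_mem (hRQ hy) (hRQ hx)) w hw
    rw [← Module.End.mul_apply, ← map_mul, h1, map_mul, Module.End.mul_apply,
      h2 _ (hcomD x (hRQ hx) y (hRQ hy)), ((hR x).1 hx).2 y (hRQ hy), one_smul, map_mul,
      Module.End.mul_apply]
  have hτU' : ∀ u ∈ U, u ≠ 1 → τ ∈ zpowers u := fun u hu => hτmem u (hUA hu)
  have hstab : ∀ (v : W) (χ : Γ → k), v ≠ 0 → v ∈ V → IsWt H R χ v → T ≤ stab R χ := by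
    intro v χ hv hvV hvχ
    have hk : ∀ x ∈ T, x⁻¹ * τ * x ∈ stab R χ := by
      intro x hx
      have h1 := gen_stab hUR (hsumU _ (hVX x (hTX hx) v hvV)) (ne_zero_of_H hv (H := H) x)
        (isWt_tw H hvχ (hTR hx)) hτU'
      rwa [mem_stab_tw (hTR hx)] at h1
    have hτs : τ ∈ stab R χ := by
      have h1 := hk 1 (one_mem _)
      rwa [inv_one, one_mul, mul_one] at h1
    rw [← hTτ, commutator_le]
    intro x hx g hg
    obtain ⟨i, rfl⟩ := mem_zpowers_iff.1 hg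
    have h1 : ⁅x, τ ^ i⁆ = (x * τ * x⁻¹) ^ i * (τ ^ i)⁻¹ := by
      rw [commutatorElement_def, conj_zpow]
    have h2 := hk x⁻¹ (inv_mem hx)
    rw [inv_inv] at h2
    rw [h1]
    exact mul_mem (zpow_mem h2 i) (inv_mem (zpow_mem hτs i))
  have hRT : ∀ g ∈ ⁅R, T⁆, ∀ w ∈ V, H g w = w := by
    intro g hg w hw
    refine eq_on_of_weights H V R (fun x hx u hu => hVQ x (hRQ hx) u hu) hcomR (Nat.card R) hcardR
      hpowR (H g) ?_ w hw
    intro v hvV χ hv0 hv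
    have h3 := commutator_le_kerWt hv hv0 (hstab v χ hv0 hvV hv) hg
    have hgR : g ∈ R := (le_normalizer_iff_commutator_le_left.mp hTR) hg
    rw [hv g hgR, h3.2, one_smul]
  have hscal : ∀ x ∈ R, ∃ c ∈ D, ∀ w ∈ V, H x w = μ c • w := by
    intro x hx
    obtain ⟨r, hr, c, hc, rfl⟩ := exists_eq_mul_of_mem hTR
      (hcTQ.coprime_dvd_right (card_dvd_of_le hRQ)) (Or.inr hRs) hx
    have hcZ : c ∈ D := hCT ⟨hRQ hc.1, hc.2⟩
    refine ⟨c, hcZ, fun w hw => ?_⟩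
    rw [map_mul, Module.End.mul_apply, hw c hcZ, map_smul, hRT r hr w hw]
  obtain ⟨v, χ, hv, hvμ, hvχ, hχμ⟩ := FpfPQ1.exists_weight H hQ hRQ hDc le_rfl hDR hv₀ hμ hkq hR
  have hUχ : U ≤ stab R χ := by
    intro u hu
    refine ⟨hUR hu, fun x hx => ?_⟩
    have hx' : u⁻¹ * x * u ∈ R := conj_mem_of_normalizer (hUR hu) hx
    obtain ⟨c, hc, hcV⟩ := hscal x hx
    have h1 : χ x = μ c := by
      have h2 := hvχ x hx
      rw [hcV v hvμ] at h2
      have h3 : (μ c - χ x) • v = 0 := by rw [sub_smul, h2, sub_self]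
      exact (sub_eq_zero.1 ((smul_eq_zero.1 h3).resolve_right hv)).symm
    have h2 := isWt_tw H hvχ (hUR hu) x hx
    rw [tw_apply, hcV _ (hVX u (hUX hu) v hvμ)] at h2
    have h3 : (μ c - χ (u⁻¹ * x * u)) • H u v = 0 := by rw [sub_smul, h2, sub_self]
    rw [h1]
    exact (sub_eq_zero.1 ((smul_eq_zero.1 h3).resolve_right (ne_zero_of_H hv (H := H) u))).symm
  have hχq := FpfPQ1.weight_pow H hQ hRQ hv hvχ hχμ hQq hDq hDR hTR hTμ hCT hcTQ
  have hcycA : IsCyclic A := by rw [hA]; infer_instance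
  have hUcyc : IsCyclic U := isCyclic_of_le hUA
  have hcardUA : Nat.card U ∣ Nat.card A := card_dvd_of_le hUA
  obtain ⟨l, hln, hl⟩ := (Nat.dvd_prime_pow Nat.prime_two).1 (hAc ▸ hcardUA)
  have hQne : Q ≠ ⊥ := by
    rintro rfl
    apply hDne
    rw [eq_bot_iff]
    exact hDQ
  have hqA : q.Coprime (Nat.card A) := by
    obtain ⟨m, hm⟩ := IsPGroup.iff_card.1 hQ
    have hm0 : m ≠ 0 := by
      rintro rfl
      rw [pow_zero] at hm
      exact hQne (Subgroup.card_eq_one.1 hm)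
    exact (hcAQ.coprime_dvd_right (by rw [hm]; exact dvd_pow_self q hm0)).symm
  have hqU : q.Coprime (Nat.card U) := hqA.coprime_dvd_right hcardUA
  have hkU : (Nat.card U : k) ≠ 0 := by
    rw [hl, Nat.cast_pow, Nat.cast_ofNat]
    exact pow_ne_zero l hk2
  have hπ1 : π 1 = 0 := (hker 1).2 (one_mem _)
  have hπinv : ∀ x, π x⁻¹ = -π x := by
    intro x
    have h1 := hadd x x⁻¹
    rw [mul_inv_cancel, hπ1] at h1
    exact (neg_eq_of_add_eq_zero_right h1.symm).symm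
  -- `T` acts nontrivially on `Q/R`
  have hTnt : ¬ T ≤ triv Q R := by
    intro hTt
    have hQR' : Q ≤ R := by
      rw [← hQT, commutator_le]
      intro x hx t ht
      have h1 := inv_mem ((hTt ht).2.2 x hx)
      have h2 : ⁅x, t⁆ = (t * x * t⁻¹ * x⁻¹)⁻¹ := by rw [commutatorElement_def]; group
      rw [h2]
      exact h1
    apply hμz₀
    have hker' : D ≤ kerWt hμ hv₀ := by
      have h9 : ∀ L : Subgroup Γ, (∀ x ∈ Q, ∀ y ∈ Q, ⁅x, y⁆ ∈ L) → D ≤ L := by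
        intro L hL
        rw [hD, commutator_le]
        exact hL
      exact h9 _ fun x hx y hy => ⟨hcomD x hx y hy, ((hR x).1 (hQR' hx)).2 y hy⟩
    exact (hker' hz₀).2
  -- acting trivially on `M`
  have htrivM : ∀ g : X, (∀ m, ρ g m = m) → (g : Γ) ∈ triv Q R := by
    intro g hg
    refine ⟨hXQ g.2, hXR g.2, fun x hx => ?_⟩
    have hn := (mem_normalizer_iff.1 (hXQ g.2) x).1 hx
    have h1 := hg (π ⟨x, hx⟩)
    rw [hρ g ⟨x, hx⟩ ⟨_, hn⟩ rfl] at h1
    have h2 : π (⟨(g : Γ) * x * (g : Γ)⁻¹, hn⟩ * ⟨x, hx⟩⁻¹) = 0 := by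
      rw [hadd, hπinv, h1, add_neg_cancel]
    exact (hker _).1 h2
  have hne : ∃ m, ρ ⟨τ, hUX hτU⟩ m ≠ m := by
    by_contra hcon
    push Not at hcon
    apply hTnt
    have h1 := commutator_le_triv hTQ hTR (htrivM ⟨τ, hUX hτU⟩ hcon)
    change ⁅T, zpowers τ⁆ ≤ triv Q R at h1
    rwa [hTτ] at h1
  obtain ⟨m, hm, hmU, hcod⟩ := HeisStep2.heis_step2 H hQ hUX hXQ hDQ hDc le_rfl hXμ hv hvχ hχμ
    hUχ (fun w hw => hsumU w (fun z hz => by rw [hw z (hDR hz), hχμ z hz]))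
    hτU hτU' hχq hQq hz₀ hμz₀ hR hUcyc
    (fun a ha b hb => hAab a (hUA ha) b (hUA hb)) hqU hkq hkU ρ π e hπ hadd
    hker hρ he heμ hnd hinv ⟨τ, hUX hτU⟩ rfl hne
  rw [hl] at hmU
  obtain ⟨rfl, hl2⟩ := eq_one_of_mersenne hq hm hmU
  rw [pow_one] at hmU
  rw [mul_one] at hcod
  -- the generator of `U`
  obtain ⟨u₀, hu₀⟩ := hUcyc.exists_generator
  have hou : orderOf u₀ = 2 ^ l := by
    rw [orderOf_eq_card_of_forall_mem_zpowers hu₀, hl]
  set uX : X := ⟨(u₀ : Γ), hUX u₀.2⟩ with huX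
  set τX : X := ⟨τ, hUX hτU⟩ with hτX
  have houX : orderOf uX = 2 ^ l := by
    rw [← hou, ← Subgroup.orderOf_coe uX, ← Subgroup.orderOf_coe u₀]
  have hτuX : uX ^ 2 ^ (l - 1) = τX := by
    obtain ⟨h1, h2⟩ := ShultGross.order_pow_prime (σ := uX) Nat.prime_two (by omega) houX
    have h3 : τX ∈ zpowers (uX ^ 2 ^ (l - 1)) := by
      have h4 : ((uX ^ 2 ^ (l - 1) : X) : Γ) ∈ A := by
        rw [Subgroup.coe_pow]
        exact pow_mem (hUA u₀.2) _
      have h5 := hτmem _ h4 (fun h => h2 (Subtype.ext h))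
      obtain ⟨i, hi⟩ := mem_zpowers_iff.1 h5
      refine mem_zpowers_iff.2 ⟨i, Subtype.ext ?_⟩
      rw [Subgroup.coe_zpow, hi]
    obtain ⟨i, hi⟩ := mem_zpowers_iff.1 h3
    rcases Int.even_or_odd i with ⟨j, rfl⟩ | ⟨j, rfl⟩
    · exfalso
      rw [← two_mul, zpow_mul, zpow_ofNat, h1, one_zpow] at hi
      exact hτ1 (congrArg Subtype.val hi.symm)
    · rw [zpow_add, zpow_mul, zpow_ofNat, h1, one_zpow, one_mul, zpow_one] at hi
      exact hi
  -- pass to the image in `GL(M)`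
  let γ : X →* (Module.End (ZMod q) M)ˣ := MonoidHom.toHomUnits ρ
  let ρ' : Representation (ZMod q) γ.range M := (Units.coeHom _).comp γ.range.subtype
  have hρ'' : ∀ g : X, ρ' (γ.rangeRestrict g) = ρ g := fun g => rfl
  have hsurj : Function.Surjective γ.rangeRestrict := γ.rangeRestrict_surjective
  have hfin : Finite γ.range := Finite.of_surjective _ hsurj
  have hcard : Nat.card γ.range ∣ Nat.card X := by
    have := Subgroup.card_range_dvd γ
    exact this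
  have hTs : Group.IsSolvable T := by
    have : Group.IsNilpotent T := hT.isNilpotent
    infer_instance
  have hcX : q.Coprime (Nat.card X) := by
    have h1 : Nat.card X ∣ Nat.card T * Nat.card U := by
      have h2 := card_sup_mul_card_inf (N := T) (H := U) (hUA.trans hAT)
      exact ⟨_, h2.symm⟩
    refine Nat.Coprime.coprime_dvd_right h1 (Nat.Coprime.mul_right ?_ hqU)
    obtain ⟨m, hm⟩ := IsPGroup.iff_card.1 hQ
    have hm0 : m ≠ 0 := by
      rintro rfl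
      rw [pow_zero] at hm
      exact hQne (Subgroup.card_eq_one.1 hm)
    exact (hcTQ.coprime_dvd_right (by rw [hm]; exact dvd_pow_self q hm0)).symm
  have hc' : q.Coprime (Nat.card γ.range) := hcX.coprime_dvd_right hcard
  have hinv' : ∀ g x y, e (ρ' g x) (ρ' g y) = e x y := by
    intro g x y
    obtain ⟨g, rfl⟩ := hsurj g
    exact hinv g x y
  have hinj' : Function.Injective ρ' := by
    intro g h hgh
    exact Subtype.ext (Units.ext hgh)
  have hfixeq : WielandtFix.fixed ρ' (zpowers (γ.rangeRestrict τX)) =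
      WielandtFix.fixed ρ (zpowers τX) := by
    ext x
    rw [WielandtFix.mem_fixed, WielandtFix.mem_fixed, HeisStep2.ker_sub_one,
      HeisStep2.ker_sub_one, hρ'']
  set T' : Subgroup γ.range := (T.subgroupOf X).map γ.rangeRestrict with hT'
  have hbot := MersLin5.commutator_eq_bot (u := γ.rangeRestrict uX) (l := l)
    (τ := γ.rangeRestrict τX) hc' ρ' hinj' he hinv' hnd T' ht ht2
    ((hT.comap_subtype (K := X)).map _) (by
      have h0 : ∀ g : X, g ∈ normalizer ((T.subgroupOf X : Subgroup X) : Set X) →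
          ∀ x ∈ T', γ.rangeRestrict g * x * (γ.rangeRestrict g)⁻¹ ∈ T' := by
        rintro b hb _ ⟨x, hx, rfl⟩
        refine ⟨b * x * b⁻¹, (mem_normalizer_iff.1 hb x).1 hx, ?_⟩
        rw [map_mul, map_mul, map_inv]
      have huN : uX ∈ normalizer ((T.subgroupOf X : Subgroup X) : Set X) := by
        rw [mem_normalizer_iff]
        intro x
        exact mem_normalizer_iff.1 (hAT (hUA u₀.2)) x
      rw [mem_normalizer_iff]
      intro x
      refine ⟨h0 uX huN x, fun hx => ?_⟩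
      have h1 := h0 uX⁻¹ (inv_mem huN) _ hx
      rw [map_inv, inv_inv] at h1
      have h2 : (γ.rangeRestrict uX)⁻¹ * (γ.rangeRestrict uX * x * (γ.rangeRestrict uX)⁻¹) *
        γ.rangeRestrict uX = x := by group
      rwa [h2] at h1) hl2 (by
      have h1 : (γ.rangeRestrict uX) ^ 2 ^ (l - 1) ≠ 1 := by
        rw [← map_pow, hτuX]
        intro h2
        obtain ⟨m, hm⟩ := hne
        apply hm
        rw [← hρ'', h2, map_one]; rfl
      have h2 : (γ.rangeRestrict uX) ^ 2 ^ l = 1 := by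
        rw [← map_pow, ← houX, pow_orderOf_eq_one, map_one]
      obtain ⟨l', rfl⟩ : ∃ l', l = l' + 1 := ⟨l - 1, by omega⟩
      have := Fact.mk Nat.prime_two
      exact orderOf_eq_prime_pow h1 h2) hmU.symm (by rw [← map_pow, hτuX])
    (by rw [hfixeq]; exact hcod)
  apply hTnt
  rw [← hTτ, commutator_le]
  intro x hx g hg
  have hxX : x ∈ X := hTX hx
  obtain ⟨i, rfl⟩ := mem_zpowers_iff.1 hg
  have h1 : ⁅γ.rangeRestrict ⟨x, hxX⟩, (γ.rangeRestrict τX) ^ i⁆ ∈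
      ⁅T', zpowers (γ.rangeRestrict τX)⁆ :=
    commutator_mem_commutator ⟨⟨x, hxX⟩, hx, rfl⟩ (zpow_mem (mem_zpowers _) i)
  rw [hbot, mem_bot, ← map_zpow, ← map_commutatorElement] at h1
  have h2 := htrivM ⁅(⟨x, hxX⟩ : X), τX ^ i⁆ (fun m => by rw [← hρ'', h1, map_one]; rfl)
  exact h2

theorem abelian_case (H : Γ →* Module.End k W) {A Q T : Subgroup Γ} [Fintype A] {τ : Γ}
    {q : ℕ} [hqf : Fact q.Prime] (hQ : IsPGroup q Q)
    (hAQ : A ≤ normalizer (Q : Set Γ)) (hinj : ∀ x ∈ Q, H x = 1 → x = 1)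
    (hsum : ∀ w : W, ∑ g : A, H (g : Γ) w = 0)
    (hτmem : ∀ a ∈ A, a ≠ 1 → τ ∈ zpowers a)
    (hTτ : ⁅T, zpowers τ⁆ = T) (hQT : ⁅Q, T⁆ = Q) (hkq : (q : k) ≠ 0)
    (hQne : Q ≠ ⊥) (hD : ⁅Q, Q⁆ = ⊥) (hτQ : τ ∈ normalizer (Q : Set Γ)) : False := by
  classical
  have hab : ∀ x ∈ Q, ∀ y ∈ Q, Commute x y := by
    intro x hx y hy
    have h1 : ⁅x, y⁆ ∈ ⁅Q, Q⁆ := commutator_mem_commutator hx hy
    rw [hD, mem_bot] at h1
    exact commutatorElement_eq_one_iff_commute.1 h1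
  have hcardk : (Nat.card Q : k) ≠ 0 := by
    intro h
    obtain ⟨m, hm⟩ := IsPGroup.iff_card.1 hQ
    rw [hm, Nat.cast_pow] at h
    exact pow_ne_zero m hkq h
  have hpowcard : ∀ x ∈ Q, x ^ Nat.card Q = 1 := by
    intro x hx
    have h1 : (⟨x, hx⟩ : Q) ^ Nat.card Q = 1 := pow_card_eq_one'
    exact congrArg (Subtype.val : Q → Γ) h1
  have hτQ' : zpowers τ ≤ normalizer (Q : Set Γ) := zpowers_le.2 hτQ
  have h1 : ⁅Q, zpowers τ⁆ = ⊥ := by
    rw [eq_bot_iff]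
    intro g hg
    rw [mem_bot]
    have hgQ : g ∈ Q := (le_normalizer_iff_commutator_le_left.mp hτQ') hg
    apply hinj g hgQ
    ext w
    refine eq_on_of_weights H ⊤ Q (fun _ _ _ _ => trivial) ?_ (Nat.card Q) hcardk hpowcard
      (H g) ?_ w trivial
    · intro x hx z hz u _
      rw [← Module.End.mul_apply, ← Module.End.mul_apply, ← map_mul, ← map_mul,
        (hab x hx z hz).eq]
    · intro v₀ _ χ hv₀ hχ
      have h3 := commutator_le_kerWt hχ hv₀ (zpowers_le.2 (gen_stab hAQ (hsum v₀) hv₀ hχ hτmem)) hg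
      rw [hχ g hgQ, h3.2, one_smul]
  -- three subgroups
  have h2 : ⁅T, Q⁆ = ⊥ := by
    rw [← hTτ]
    refine commutator_commutator_eq_bot ?_ ?_
    · rw [commutator_comm (zpowers τ) Q, h1, commutator_bot_left]
    · rw [hQT, h1]
  rw [commutator_comm, hQT] at h2
  exact hQne h2

theorem config (H : Γ →* Module.End k W) (K A Q₀ T₀ : Subgroup Γ) [Fintype A]
    (hKs : Group.IsSolvable K)
    (hinj : ∀ x ∈ K, H x = 1 → x = 1) {σ τ : Γ} {n : ℕ} (hA : A = zpowers σ) (hn : 0 < n)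
    (ho : orderOf σ = 2 ^ n) (hτσ : σ ^ 2 ^ (n - 1) = τ)
    (hcop : (Nat.card A).Coprime (Nat.card K))
    (hsum : ∀ w : W, ∑ a : A, H (a : Γ) w = 0)
    {q t : ℕ} (hq : q.Prime) (ht : t.Prime) (hqt : q ≠ t) (ht2 : t ≠ 2) (hqk : (q : k) ≠ 0)
    (hk2 : (2 : k) ≠ 0)
    (hQ₀ : IsPGroup q Q₀) (hQ₀K : Q₀ ≤ K) (hKQ₀ : K ≤ normalizer (Q₀ : Set Γ))
    (hAQ₀ : A ≤ normalizer (Q₀ : Set Γ)) (hT₀ : IsPGroup t T₀) (hT₀K : T₀ ≤ K)
    (hAT₀ : A ≤ normalizer (T₀ : Set Γ)) : ⁅Q₀, ⁅T₀, zpowers τ⁆⁆ = ⊥ := by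
  classical
  by_contra hne
  have hqf := Fact.mk hq
  have htf := Fact.mk ht
  have hcopA : ∀ S L : Subgroup Γ, S ≤ A → L ≤ K → (Nat.card S).Coprime (Nat.card L) :=
    fun S L hS hL => Nat.Coprime.coprime_dvd_left (card_dvd_of_le hS)
      (Nat.Coprime.coprime_dvd_right (card_dvd_of_le hL) hcop)
  have hsolvle : ∀ L : Subgroup Γ, L ≤ K → Group.IsSolvable L := fun L hL => isSolvable_of_le hL hKs
  have hσA : σ ∈ A := by rw [hA]; exact mem_zpowers σ
  have hτA : τ ∈ A := by rw [← hτσ]; exact pow_mem hσA _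
  have hτA' : zpowers τ ≤ A := zpowers_le.2 hτA
  have hτmem : ∀ a ∈ A, a ≠ 1 → τ ∈ zpowers a := by
    intro a ha ha1
    rw [hA] at ha
    have := ShultGross.tau_mem Nat.prime_two hn ho ha ha1
    rwa [hτσ] at this
  have hAab : ∀ a ∈ A, ∀ b ∈ A, Commute a b := by
    intro a ha b hb
    rw [hA] at ha hb
    obtain ⟨i, rfl⟩ := mem_zpowers_iff.1 ha
    obtain ⟨j, rfl⟩ := mem_zpowers_iff.1 hb
    exact Commute.zpow_zpow_self σ i j
  have hAn : A ≤ normalizer ((zpowers τ : Subgroup Γ) : Set Γ) := by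
    rw [le_normalizer_iff]
    intro g hg x hx
    rw [(hAab g hg x (hτA' hx)).eq, mul_inv_cancel_right]
    exact hx
  set T : Subgroup Γ := ⁅T₀, zpowers τ⁆ with hTdef
  have hτT₀ : zpowers τ ≤ normalizer (T₀ : Set Γ) := hτA'.trans hAT₀
  have hTT₀ : T ≤ T₀ := le_normalizer_iff_commutator_le_left.mp hτT₀
  have hTK : T ≤ K := hTT₀.trans hT₀K
  have hT : IsPGroup t T := hT₀.to_le hTT₀
  have hAT : A ≤ normalizer (T : Set Γ) := Lib.H32PSolv.le_normalizer_commutator hAT₀ hAn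
  have hTτ : ⁅T, zpowers τ⁆ = T := commutator_commutator hτT₀ (hcopA _ _ hτA' hT₀K)
    (Or.inr (hsolvle T₀ hT₀K))
  -- minimal `Q`
  obtain ⟨Q, hQmin⟩ := (Set.toFinite {Q : Subgroup Γ | Q ≤ Q₀ ∧ A ≤ normalizer (Q : Set Γ) ∧
    T ≤ normalizer (Q : Set Γ) ∧ ⁅Q, T⁆ ≠ ⊥}).exists_minimal
      ⟨Q₀, le_rfl, hAQ₀, hTK.trans hKQ₀, hne⟩
  obtain ⟨hQQ₀, hAQ, hTQ, hQTne'⟩ := hQmin.prop
  have hmin : ∀ R : Subgroup Γ, R < Q → A ≤ normalizer (R : Set Γ) → T ≤ normalizer (R : Set Γ) →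
      ⁅R, T⁆ = ⊥ := by
    intro R hR hAR hTR
    by_contra h
    have h1 := hQmin.2 (y := R) ⟨hR.le.trans hQQ₀, hAR, hTR, h⟩ hR.le
    exact hR.not_ge h1
  have hQp : IsPGroup q Q := hQ₀.to_le hQQ₀
  have hQK : Q ≤ K := hQQ₀.trans hQ₀K
  have hcTQ : (Nat.card T).Coprime (Nat.card Q) :=
    IsPGroup.coprime_card_of_ne t q hqt.symm _ _ hT hQp
  have hQT : ⁅Q, T⁆ = Q := by
    have hle : ⁅Q, T⁆ ≤ Q := le_normalizer_iff_commutator_le_left.mp hTQ
    by_contra hneq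
    have hlt : ⁅Q, T⁆ < Q := lt_of_le_of_ne hle hneq
    have h1 := hmin _ hlt (Lib.H32PSolv.le_normalizer_commutator hAQ hAT)
      (normalizer_commutator_ge_right Q T)
    exact hQTne' (commutator_eq_bot_of_commutator_commutator hTQ hcTQ
      (Or.inr (hsolvle Q hQK)) h1)
  have hQne : Q ≠ ⊥ := by
    rintro rfl
    exact hQTne' (commutator_bot_left _)
  by_cases hDb : ⁅Q, Q⁆ = ⊥
  · exact abelian_case H hQp hAQ (fun x hx => hinj x (hQK hx)) hsum hτmem hTτ hQT hqk hQne hDb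
      (hAQ hτA)
  set D : Subgroup Γ := ⁅Q, Q⁆ with hD
  have hDQ : D ≤ Q := le_normalizer_iff_commutator_le_left.mp le_normalizer
  have hnt : Nontrivial Q := (nontrivial_iff_ne_bot Q).2 hQne
  have hDlt : D < Q := by
    have hs := hsolvle Q hQK
    have h1 : _root_.commutator Q < ⊤ := Group.IsSolvable.commutator_lt_top_of_nontrivial Q
    refine lt_of_le_of_ne hDQ ?_
    intro h2
    apply h1.ne
    rw [hD, ← Q.map_subtype_commutator] at h2
    have h3 : (_root_.commutator Q).map Q.subtype = (⊤ : Subgroup Q).map Q.subtype := by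
      rw [h2, ← MonoidHom.range_eq_map, range_subtype]
    exact Subgroup.map_injective Q.subtype_injective h3
  have hAD : A ≤ normalizer (D : Set Γ) := Lib.H32PSolv.le_normalizer_commutator hAQ hAQ
  have hTDn : T ≤ normalizer (D : Set Γ) := Lib.H32PSolv.le_normalizer_commutator hTQ hTQ
  have hTD : T ≤ centralizer (D : Set Γ) := by
    have h1 := hmin D hDlt hAD hTDn
    rw [commutator_comm, commutator_eq_bot_iff_le_centralizer] at h1
    exact h1
  have hQD : Q ≤ centralizer (D : Set Γ) := le_centralizer_of_commutator_eq hQT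
    (Lib.H32PSolv.le_normalizer_commutator le_normalizer le_normalizer) hTD
  have hDc : ∀ z ∈ D, ∀ y ∈ Q, Commute y z := fun z hz y hy =>
    (mem_centralizer_iff.1 (hQD hy) z hz).symm
  have hCT : Q ⊓ centralizer (T : Set Γ) ≤ D := mem_commutator_of_centralizer hTQ hQT hcTQ
  have hQq : ∀ x ∈ Q, x ^ q ∈ D := by
    obtain ⟨h1, h2⟩ := ShultGross.frattini_map hQne hAQ
    obtain ⟨-, h3⟩ := ShultGross.frattini_map hQne hTQ
    intro x hx
    have h4 := hmin _ h1 h2 h3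
    rw [commutator_eq_bot_iff_le_centralizer] at h4
    exact hCT ⟨h1.le ⟨⟨x, hx⟩ ^ q, HBBasic.pow_mem_frattini hQp ⟨x, hx⟩, rfl⟩,
      h4 ⟨⟨x, hx⟩ ^ q, HBBasic.pow_mem_frattini hQp ⟨x, hx⟩, rfl⟩⟩
  exact nonabelian_case H hA hn ho hτσ ht ht2 hQp hT hAQ hAT hTQ (fun x hx => hinj x (hQK hx)) hsum
    (hcopA A Q le_rfl hQK) hcTQ hTτ hQT hqk hk2 hDb hTD hDc hQq

end Main

end Cfsg.Agent.Lib.GrossA
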