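import Cfsg.Agent.Lib.BryStep
import Cfsg.Agent.Lib.GrossA
import Cfsg.Agent.Lib.HHWt

/-!
Bryukhanova's theorem: the local module (helper59).
-/

set_option autoImplicit false

namespace Cfsg.Agent.Lib.BryLoc

open Module Subgroup Cfsg.Agent.Lib.WielandtFix Cfsg.Agent.Lib.SympFix Cfsg.Agent.Lib.WtGroup
  Cfsg.Agent.Lib.Weights Cfsg.Agent.Lib.CoprimeAction Cfsg.Agent.Lib.CoprimeAction2
  Cfsg.Agent.Lib.SubgroupTools Cfsg.Agent.Lib.Ward Cfsg.Agent.Lib.FpfPQ3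
open scoped commutatorElement

universe u v w

section Stab

variable {Γ : Type u} [Group Γ] {k : Type v} {W : Type w}
    [Field k] [CharP k 2] [AddCommGroup W] [Module k W]

theorem exists_stab (H : Γ →* Module.End k W) {L : Subgroup Γ} {χ : Γ → k} {x : Γ}
    (hx : x ∈ normalizer (L : Set Γ)) {b : ℕ} (hxb : x ^ 2 ^ b ∈ stab L χ) {v : W}
    (hv0 : v ≠ 0) (hv : IsWt H L χ v)
    (hnil : ((H x - 1) ^ (2 ^ b - 1) : Module.End k W) v = 0) :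
    ∃ t, t < b ∧ x ^ 2 ^ t ∈ stab L χ ∧ ∀ i, 0 < i → i < 2 ^ t → x ^ i ∉ stab L χ := by
  have h2f : Fact (Nat.Prime 2) := ⟨Nat.prime_two⟩
  obtain ⟨t, ht, hxt, hmin⟩ := HHWt.exists_least Nat.prime_two hxb
  refine ⟨t, lt_of_le_of_ne ht ?_, hxt, hmin⟩
  rintro rfl
  exact HHWt.sub_one_pow_ne_zero (p := 2) H hx t (fun i h1 h2 h3 => hmin i h1 h2 h3) hv hv0 hnil

theorem sigma_stab (H : Γ →* Module.End k W) {L : Subgroup Γ} {χ : Γ → k} {x : Γ}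
    (hx : x ∈ normalizer (L : Set Γ)) {b : ℕ} (hxb : x ^ 2 ^ b ∈ stab L χ) {v : W}
    (hv0 : v ≠ 0) (hv : IsWt H L χ v)
    (hnil : ((H x - 1) ^ (2 ^ b - 1) : Module.End k W) v = 0) :
    x ^ 2 ^ (b - 1) ∈ stab L χ := by
  obtain ⟨t, ht, hxt, -⟩ := exists_stab H hx hxb hv0 hv hnil
  have h1 : b - 1 = t + (b - 1 - t) := by omega
  rw [h1, pow_add, pow_mul]
  exact pow_mem hxt _

theorem nil_stab (H : Γ →* Module.End k W) {L : Subgroup Γ} {χ : Γ → k} {x : Γ}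
    (hx : x ∈ normalizer (L : Set Γ)) {t b l : ℕ} (htb : t + b = l)
    (hxt : x ^ 2 ^ t ∈ stab L χ) (hmin : ∀ i, 0 < i → i < 2 ^ t → x ^ i ∉ stab L χ) {w : W}
    (hw : IsWt H L χ w) (hnil : ((H x - 1) ^ (2 ^ l - 1) : Module.End k W) w = 0) :
    ((H (x ^ 2 ^ t) - 1) ^ (2 ^ b - 1) : Module.End k W) w = 0 := by
  have h2f : Fact (Nat.Prime 2) := ⟨Nat.prime_two⟩
  by_contra hne
  have hmem : ∀ i : ℕ, ((H (x ^ 2 ^ t) - 1) ^ i : Module.End k W) w ∈ wtSub H L χ := by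
    intro i
    induction i with
    | zero => exact hw
    | succ i ih =>
      rw [pow_succ', Module.End.mul_apply, LinearMap.sub_apply]
      refine sub_mem ?_ ih
      intro z hz
      have h1 := isWt_tw H ih hxt.1 z hz
      rw [h1, tw_apply, hxt.2 z hz]
  apply HHWt.sub_one_pow_ne_zero (p := 2) H hx t (fun i h1 h2 h3 => hmin i h1 h2 h3) (hmem _) hne
  rw [map_pow, ← HHLin.sub_one_pow (K := k) (p := 2), ← pow_mul, ← Module.End.mul_apply, ← pow_add]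
  have h1 : 2 ^ t - 1 + 2 ^ t * (2 ^ b - 1) = 2 ^ l - 1 := by
    have h2 : 2 ^ l = 2 ^ t * 2 ^ b := by rw [← pow_add, htb]
    have h3 : 0 < 2 ^ t := by positivity
    have h4 : 0 < 2 ^ b := by positivity
    have h5 : 2 ^ t * (2 ^ b - 1) = 2 ^ l - 2 ^ t := by rw [Nat.mul_sub, mul_one, h2]
    have h6 : 2 ^ t ≤ 2 ^ l := by rw [h2]; exact Nat.le_mul_of_pos_right _ h4
    omega
  rw [h1, hnil]

end Stab

section Ab

variable {Γ : Type u} [Group Γ] [Finite Γ] {k : Type v} {W : Type w}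
    [Field k] [IsAlgClosed k] [CharP k 2] [AddCommGroup W] [Module k W] [FiniteDimensional k W]

/-- `σ(x)` centralizes the abelian subgroups of odd order normalized by `x` -/
theorem sigma_centralizes (H : Γ →* Module.End k W) {D : Subgroup Γ}
    (hinj : ∀ x ∈ D, H x = 1 → x = 1) (hab : ∀ x ∈ D, ∀ y ∈ D, Commute x y)
    (hcard : (Nat.card D : k) ≠ 0) {x : Γ} (hx : x ∈ normalizer (D : Set Γ)) {l : ℕ}
    (hxl : x ^ 2 ^ l = 1) (hnil : (H x - 1) ^ (2 ^ l - 1) = 0) :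
    ∀ d ∈ D, Commute (x ^ 2 ^ (l - 1)) d := by
  have hpow : ∀ x ∈ D, x ^ Nat.card D = 1 := by
    intro x hx
    have h1 : (⟨x, hx⟩ : D) ^ Nat.card D = 1 := pow_card_eq_one'
    exact congrArg (Subtype.val : D → Γ) h1
  set τ := x ^ 2 ^ (l - 1) with hτ
  have hτD : zpowers τ ≤ normalizer (D : Set Γ) := zpowers_le.2 (pow_mem hx _)
  have h1 : ⁅D, zpowers τ⁆ = ⊥ := by
    rw [eq_bot_iff]
    intro g hg
    rw [mem_bot]
    have hgD : g ∈ D := (le_normalizer_iff_commutator_le_left.mp hτD) hg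
    apply hinj g hgD
    ext w
    refine eq_on_of_weights H ⊤ D (fun _ _ _ _ => trivial) ?_ (Nat.card D) hcard hpow
      (H g) ?_ w trivial
    · intro x hx z hz u _
      rw [← Module.End.mul_apply, ← Module.End.mul_apply, ← map_mul, ← map_mul,
        (hab x hx z hz).eq]
    · intro v₀ _ χ hv₀ hχ
      have h2 : τ ∈ stab D χ := sigma_stab H hx (by rw [hxl]; exact one_mem _) hv₀ hχ
        (by rw [hnil]; rfl)
      have h3 := commutator_le_kerWt hχ hv₀ (zpowers_le.2 h2) hg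
      rw [hχ g hgD, h3.2, one_smul]
  intro d hd
  have h2 : ⁅d, τ⁆ ∈ ⁅D, zpowers τ⁆ := commutator_mem_commutator hd (mem_zpowers τ)
  rw [h1, mem_bot, commutatorElement_eq_one_iff_commute] at h2
  exact h2.symm

end Ab

/-- `x` acts like a transvection of order `2 ^ b`. -/
structure TL {q : ℕ} {M : Type*} [AddCommGroup M] [Module (ZMod q) M] {X : Type*} [Group X]
    (ρ : X →* Module.End (ZMod q) M) (x : X) (b : ℕ) : Prop where
  two_le : 2 ≤ b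
  pow : ρ (x ^ 2 ^ b) = 1
  fin : finrank (ZMod q) (LinearMap.range (ρ (x ^ 2 ^ (b - 1)) - 1)) = 2
  triv : ∀ v, ρ (x ^ 2 ^ (b - 1)) v = v → ρ x v = v

section Loc

variable {Γ : Type u} [Group Γ] {k : Type v} {W : Type w}
    [Field k] [AddCommGroup W] [Module k W]

/-- the local data -/
structure Loc (H : Γ →* Module.End k W) (q : ℕ) (Q R X : Subgroup Γ) (μ : Γ → k) (v₀ : W)
    {M : Type u} [AddCommGroup M] [Module (ZMod q) M]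
    (ρ : Representation (ZMod q) X M) (π : Q → M) (e : M → M → k) : Prop where
  hq2 : q ≠ 2
  hQ : IsPGroup q Q
  hkq : (q : k) ≠ 0
  hX : ∀ g, g ∈ X ↔ g ∈ normalizer (Q : Set Γ) ∧ g ∈ stab ⁅Q, Q⁆ μ
  hDc : ∀ z ∈ ⁅Q, Q⁆, ∀ y ∈ Q, Commute y z
  hQq : ∀ x ∈ Q, x ^ q ∈ ⁅Q, Q⁆
  hv₀ : v₀ ≠ 0
  hμ : IsWt H ⁅Q, Q⁆ μ v₀
  hμne : ∃ z ∈ ⁅Q, Q⁆, μ z ≠ 1
  hR : ∀ x, x ∈ R ↔ x ∈ Q ∧ ∀ y ∈ Q, μ ⁅x, y⁆ = 1
  hπ : Function.Surjective π
  hadd : ∀ x y, π (x * y) = π x + π y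
  hker : ∀ x, π x = 0 ↔ (x : Γ) ∈ R
  hρ : ∀ (a : X) (x y : Q), (y : Γ) = a * x * (a : Γ)⁻¹ → ρ a (π x) = π y
  he : IsPairing e
  heμ : ∀ x y : Q, e (π x) (π y) = μ ⁅(x : Γ), (y : Γ)⁆
  hnd : ∀ m, (∀ n, e m n = 1) → m = 0
  hinv : ∀ g m n, e (ρ g m) (ρ g n) = e m n
  hscal : ∀ x ∈ R, ∃ c ∈ ⁅Q, Q⁆, ∀ w ∈ wtSub H ⁅Q, Q⁆ μ, H x w = μ c • w

end Loc

section Main

variable {Γ : Type u} [Group Γ] [Finite Γ] {k : Type v} {W : Type w}
    [Field k] [IsAlgClosed k] [CharP k 2] [AddCommGroup W] [Module k W] [FiniteDimensional k W]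

omit [IsAlgClosed k] [CharP k 2] [FiniteDimensional k W] in
theorem isSolvable_pgroup {q : ℕ} (hq : q.Prime) {Q : Subgroup Γ} (hQ : IsPGroup q Q) :
    Group.IsSolvable Q := by
  have := Fact.mk hq
  have : Group.IsNilpotent Q := hQ.isNilpotent
  infer_instance

/-- existence of the local data -/
theorem exists_loc (H : Γ →* Module.End k W) {q : ℕ} [hqf : Fact q.Prime] (hq2 : q ≠ 2)
    {Q : Subgroup Γ} {μ : Γ → k} {v₀ : W} (hQ : IsPGroup q Q)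
    (hDc : ∀ z ∈ ⁅Q, Q⁆, ∀ y ∈ Q, Commute y z) (hQq : ∀ x ∈ Q, x ^ q ∈ ⁅Q, Q⁆)
    (hv₀ : v₀ ≠ 0) (hμ : IsWt H ⁅Q, Q⁆ μ v₀) (hμne : ∃ z ∈ ⁅Q, Q⁆, μ z ≠ 1)
    {B : Subgroup Γ} (hBQ : B ≤ normalizer (Q : Set Γ)) (hBμ : B ≤ stab ⁅Q, Q⁆ μ)
    (hcBQ : (Nat.card B).Coprime (Nat.card Q)) (hCB : Q ⊓ centralizer (B : Set Γ) ≤ ⁅Q, Q⁆)
    {R : Subgroup Γ} (hR : ∀ x, x ∈ R ↔ x ∈ Q ∧ ∀ y ∈ Q, μ ⁅x, y⁆ = 1)
    (hBχ : ∀ (v : W) (χ : Γ → k), v ≠ 0 → v ∈ wtSub H ⁅Q, Q⁆ μ → IsWt H R χ v →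
      B ≤ stab R χ) :
    ∃ (X : Subgroup Γ) (M : Type u) (_ : AddCommGroup M) (_ : Module (ZMod q) M)
      (_ : Finite M) (ρ : Representation (ZMod q) X M) (π : Q → M) (e : M → M → k),
      Loc H q Q R X μ v₀ ρ π e := by
  have hq := hqf.out
  have hkq : (q : k) ≠ 0 := by
    intro h0
    rw [CharP.cast_eq_zero_iff k 2] at h0
    exact hq2 ((Nat.prime_dvd_prime_iff_eq Nat.prime_two hq).1 h0).symm
  set D : Subgroup Γ := ⁅Q, Q⁆ with hD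
  have hDQ : D ≤ Q := le_normalizer_iff_commutator_le_left.mp le_normalizer
  have hcomD : ∀ x ∈ Q, ∀ y ∈ Q, ⁅x, y⁆ ∈ D := fun x hx y hy => commutator_mem_commutator hx hy
  have hμ1 : μ 1 = 1 := isWt_one hμ hv₀
  have hμm : ∀ x ∈ D, ∀ y ∈ D, μ (x * y) = μ x * μ y := fun x hx y hy => isWt_mul hμ hv₀ hx hy
  set X : Subgroup Γ := normalizer (Q : Set Γ) ⊓ stab D μ with hX
  have hXQ : X ≤ normalizer (Q : Set Γ) := inf_le_left
  have hXμ : X ≤ stab D μ := inf_le_right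
  obtain ⟨hDR, hQR, hXR⟩ := SympSec.radical_props hDQ hDc le_rfl hμ1 hXQ hXμ hR
  obtain ⟨M, i1, i2, i3, ρ, π, e, hπ, hadd, hker, hρ, he, heμ, hnd, hinv⟩ :=
    SympSec.exists_symp (q := q) hDQ hDc le_rfl hQq hμ1 hμm hXQ hXμ hR
  refine ⟨X, M, i1, i2, i3, ρ, π, e, hq2, hQ, hkq, fun g => mem_inf, hDc, hQq, hv₀, hμ,
    hμne, hR, hπ, hadd, hker, hρ, he, heμ, hnd, hinv, ?_⟩
  have hRQ : R ≤ Q := fun x hx => ((hR x).1 hx).1
  have hRs : Group.IsSolvable R := isSolvable_pgroup hq (hQ.to_le hRQ)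
  have hcardR : (Nat.card R : k) ≠ 0 := BryHeis.card_ne_zero' hkq hq (hQ.to_le hRQ)
  have hpowR : ∀ x ∈ R, x ^ Nat.card R = 1 := by
    intro x hx
    have h1 : (⟨x, hx⟩ : R) ^ Nat.card R = 1 := pow_card_eq_one'
    exact congrArg (Subtype.val : R → Γ) h1
  set V : Submodule k W := wtSub H D μ with hV
  have hVQ : ∀ x ∈ Q, ∀ w ∈ V, H x w ∈ V := by
    intro x hx w hw z hz
    rw [← Module.End.mul_apply, ← map_mul, ← (hDc z hz x hx).eq, map_mul, Module.End.mul_apply,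
      hw z hz, map_smul]
  have hcomR : ∀ x ∈ R, ∀ y ∈ R, ∀ w ∈ V, H x (H y w) = H y (H x w) := by
    intro x hx y hy w hw
    have h1 : x * y = ⁅x, y⁆ * (y * x) := by rw [commutatorElement_def]; group
    have h2 : H (y * x) w ∈ V := hVQ _ (mul_mem (hRQ hy) (hRQ hx)) w hw
    rw [← Module.End.mul_apply, ← map_mul, h1, map_mul, Module.End.mul_apply,
      h2 _ (hcomD x (hRQ hx) y (hRQ hy)), ((hR x).1 hx).2 y (hRQ hy), one_smul, map_mul,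
      Module.End.mul_apply]
  have hBR : B ≤ normalizer (R : Set Γ) := (le_inf hBQ hBμ).trans hXR
  have hRB : ∀ g ∈ ⁅R, B⁆, ∀ w ∈ V, H g w = w := by
    intro g hg w hw
    refine eq_on_of_weights H V R (fun x hx u hu => hVQ x (hRQ hx) u hu) hcomR (Nat.card R) hcardR
      hpowR (H g) ?_ w hw
    intro v hvV χ hv0 hv
    have h3 := commutator_le_kerWt hv hv0 (hBχ v χ hv0 hvV hv) hg
    have hgR : g ∈ R := (le_normalizer_iff_commutator_le_left.mp hBR) hg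
    rw [hv g hgR, h3.2, one_smul]
  intro x hx
  obtain ⟨r, hr, c, hc, rfl⟩ := exists_eq_mul_of_mem hBR
    (hcBQ.coprime_dvd_right (card_dvd_of_le hRQ)) (Or.inr hRs) hx
  have hcZ : c ∈ D := hCB ⟨hRQ hc.1, hc.2⟩
  refine ⟨c, hcZ, fun w hw => ?_⟩
  rw [map_mul, Module.End.mul_apply, hw c hcZ, map_smul, hRB r hr w hw]

variable {H : Γ →* Module.End k W} {q : ℕ} [hqf : Fact q.Prime] {Q R X : Subgroup Γ}
  {μ : Γ → k} {v₀ : W} {M : Type u} [AddCommGroup M] [Module (ZMod q) M] [Finite M]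
  {ρ : Representation (ZMod q) X M} {π : Q → M} {e : M → M → k}

/-- the main property of the local data -/
theorem Loc.tl (L : Loc H q Q R X μ v₀ ρ π e) {g : Γ} (hg : g ∈ normalizer (Q : Set Γ)) {l : ℕ}
    (hgl : g ^ 2 ^ l = 1) (hnil : (H g - 1) ^ (2 ^ l - 1) = 0) :
    ∃ hτ : g ^ 2 ^ (l - 1) ∈ X, (∃ m, ρ ⟨g ^ 2 ^ (l - 1), hτ⟩ m ≠ m) →
      ∃ b, q + 1 = 2 ^ b ∧ b ≤ l ∧ ∃ hx : g ^ 2 ^ (l - b) ∈ X,
        TL ρ ⟨g ^ 2 ^ (l - b), hx⟩ b := by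
  have hq := hqf.out
  set D : Subgroup Γ := ⁅Q, Q⁆ with hD
  have hDQ : D ≤ Q := le_normalizer_iff_commutator_le_left.mp le_normalizer
  have hcomD : ∀ x ∈ Q, ∀ y ∈ Q, ⁅x, y⁆ ∈ D := fun x hx y hy => commutator_mem_commutator hx hy
  have hμ1 : μ 1 = 1 := isWt_one L.hμ L.hv₀
  have hXQ : X ≤ normalizer (Q : Set Γ) := fun g hg => ((L.hX g).1 hg).1
  have hXμ : X ≤ stab D μ := fun g hg => ((L.hX g).1 hg).2
  obtain ⟨hDR, hQR, hXR⟩ := SympSec.radical_props hDQ L.hDc le_rfl hμ1 hXQ hXμ L.hR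
  have hRQ : R ≤ Q := fun x hx => ((L.hR x).1 hx).1
  have hgD : g ∈ normalizer (D : Set Γ) :=
    (Lib.H32PSolv.le_normalizer_commutator (zpowers_le.2 hg) (zpowers_le.2 hg)) (mem_zpowers g)
  have hnilv : ∀ v, ((H g - 1) ^ (2 ^ l - 1) : Module.End k W) v = 0 := fun v => by
    rw [hnil]; rfl
  obtain ⟨t, htl, hgt, hmin⟩ := exists_stab H hgD (b := l) (by rw [hgl]; exact one_mem _) L.hv₀
    L.hμ (hnilv _)
  have hτμ : g ^ 2 ^ (l - 1) ∈ stab D μ := by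
    have h1 : l - 1 = t + (l - 1 - t) := by omega
    rw [h1, pow_add, pow_mul]
    exact pow_mem hgt _
  have hτX : g ^ 2 ^ (l - 1) ∈ X := (L.hX _).2 ⟨pow_mem hg _, hτμ⟩
  refine ⟨hτX, fun hne => ?_⟩
  obtain ⟨b, hbl⟩ : ∃ b, t + b = l := ⟨l - t, by omega⟩
  have hb1 : 1 ≤ b := by omega
  have hxX : g ^ 2 ^ t ∈ X := (L.hX _).2 ⟨pow_mem hg _, hgt⟩
  obtain ⟨v, χ, hv, hvμ, hvχ, hχμ⟩ := FpfPQ1.exists_weight H L.hQ hRQ L.hDc le_rfl hDR L.hv₀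
    L.hμ L.hkq L.hR
  have hVX : ∀ x ∈ X, ∀ w, IsWt H D μ w → IsWt H D μ (H x w) := by
    intro g hg w hw z hz
    have h1 := isWt_tw H hw (hXμ hg).1 z hz
    rw [h1, tw_apply, (hXμ hg).2 z hz]
  have hXχ : X ≤ stab R χ := by
    intro u hu
    refine ⟨hXR hu, fun x hx => ?_⟩
    have hx' : u⁻¹ * x * u ∈ R := conj_mem_of_normalizer (hXR hu) hx
    obtain ⟨c, hc, hcV⟩ := L.hscal x hx
    have h1 : χ x = μ c := by
      have h2 := hvχ x hx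
      rw [hcV v hvμ] at h2
      have h3 : (μ c - χ x) • v = 0 := by rw [sub_smul, h2, sub_self]
      exact (sub_eq_zero.1 ((smul_eq_zero.1 h3).resolve_right hv)).symm
    have h2 := isWt_tw H hvχ (hXR hu) x hx
    rw [tw_apply, hcV _ (hVX u hu v hvμ)] at h2
    have h3 : (μ c - χ (u⁻¹ * x * u)) • H u v = 0 := by rw [sub_smul, h2, sub_self]
    rw [h1]
    exact (sub_eq_zero.1 ((smul_eq_zero.1 h3).resolve_right (ne_zero_of_H hv (H := H) u))).symm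
  set x₁ : X := ⟨g ^ 2 ^ t, hxX⟩ with hx₁
  have hx₁b : x₁ ^ 2 ^ b = 1 := by
    apply Subtype.ext
    rw [Subgroup.coe_pow]
    change (g ^ 2 ^ t) ^ 2 ^ b = 1
    rw [← pow_mul, ← pow_add, hbl, hgl]
  have hτx : x₁ ^ 2 ^ (b - 1) = ⟨g ^ 2 ^ (l - 1), hτX⟩ := by
    apply Subtype.ext
    rw [Subgroup.coe_pow]
    change (g ^ 2 ^ t) ^ 2 ^ (b - 1) = g ^ 2 ^ (l - 1)
    rw [← pow_mul, ← pow_add]
    congr 2
    omega
  obtain ⟨⟨m, hm, hbm, hfin⟩, htriv⟩ := BryStep.heis_step H L.hq2 L.hQ hXQ hDQ L.hDc le_rfl hXμ hv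
    hvχ hχμ (x₁ := x₁) (hXχ hxX) hb1 hx₁b (by
      intro w hw
      exact nil_stab H hgD hbl hgt hmin (fun z hz => by rw [hw z (hDR hz), hχμ z hz]) (hnilv _))
    L.hR L.hkq ρ π e L.hπ L.hadd L.hker L.hρ L.he L.heμ L.hnd L.hinv ⟨g ^ 2 ^ (l - 1), hτX⟩ hτx
    hne
  obtain ⟨rfl, hb2⟩ := GrossA.eq_one_of_mersenne hq hm hbm
  rw [pow_one] at hbm
  rw [mul_one] at hfin
  have hlb : l - b = t := by omega
  refine ⟨b, hbm.symm, by omega, by rw [hlb]; exact hxX, ?_⟩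
  have hx₁' : ∀ h, (⟨g ^ 2 ^ (l - b), h⟩ : X) = x₁ := fun h => by
    apply Subtype.ext
    change g ^ 2 ^ (l - b) = g ^ 2 ^ t
    rw [hlb]
  rw [hx₁']
  refine ⟨hb2, by rw [hx₁b, map_one], ?_, ?_⟩
  · rw [hτx]
    have h1 := LinearMap.finrank_range_add_finrank_ker (ρ ⟨g ^ 2 ^ (l - 1), hτX⟩ - 1)
    have h2 : LinearMap.ker (ρ ⟨g ^ 2 ^ (l - 1), hτX⟩ - 1) =
        fixed ρ (zpowers ⟨g ^ 2 ^ (l - 1), hτX⟩) := by
      ext x
      rw [LinearMap.mem_ker, mem_fixed, HeisStep2.ker_sub_one]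
      exact sub_eq_zero
    rw [h2] at h1
    omega
  · intro v hv
    rw [hτx] at hv
    exact htriv v hv

end Main

end Cfsg.Agent.Lib.BryLoc
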