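import Mathlib
import Cfsg.Agent.Lib.HHCrit2
import Cfsg.Agent.Lib.HHWt
import Cfsg.Agent.Lib.HHMin

/-! The Hall-Higman theorem over algebraically closed fields (helper63). -/

set_option autoImplicit false
open scoped commutatorElement

namespace Cfsg.Agent.Lib.HHMain

open Module Cfsg.Agent.Lib.ModRep Cfsg.Agent.Lib.HHLin Cfsg.Agent.Lib.HHWt Cfsg.Agent.Lib.HHCrit
  Cfsg.Agent.Lib.HHMin Cfsg.Agent.Lib.BG02

universe u v w

section Image

variable {K : Type*} [Field K] {W : Type*} [AddCommGroup W] [Module K W] {G : Type*} [Group G]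

/-- the image group of a representation. -/
def img (σ : G →* Module.End K W) : Subgroup (Module.End K W)ˣ := σ.toHomUnits.range

/-- the map onto the image. -/
def toImg (σ : G →* Module.End K W) : G →* img σ := σ.toHomUnits.rangeRestrict

/-- the image group acting on the space. -/
def incl (σ : G →* Module.End K W) : img σ →* Module.End K W := (Units.coeHom _).comp (img σ).subtype

theorem incl_toImg (σ : G →* Module.End K W) (g : G) : incl σ (toImg σ g) = σ g := rfl

theorem incl_injective (σ : G →* Module.End K W) : Function.Injective (incl σ) := by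
  intro a b h
  apply Subtype.ext
  exact Units.ext h

theorem toImg_surjective (σ : G →* Module.End K W) : Function.Surjective (toImg σ) :=
  MonoidHom.rangeRestrict_surjective _

theorem finite_img [Finite G] (σ : G →* Module.End K W) : Finite (img σ) :=
  Finite.of_surjective _ (toImg_surjective σ)

theorem subrep_sub_one_pow (ρ : G →* Module.End K W) (Y : Submodule K W) (h : Inv ρ Y) (g : G) (k : ℕ) (y : Y) :
    ((((subrep ρ Y h g - 1) ^ k) y : Y) : W) = ((ρ g - 1) ^ k) (y : W) := by
  induction k with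
  | zero => rfl
  | succ k ih =>
    rw [pow_succ', pow_succ', Module.End.mul_apply, Module.End.mul_apply, ← ih]
    rfl

theorem irr_incl {σ : G →* Module.End K W} (h : Irr σ) : Irr (incl σ) := by
  refine ⟨h.nt, ?_⟩
  intro Y hY
  apply h.irr Y
  intro g w hw
  exact hY (toImg σ g) w hw

/-- the image of a minimal configuration is a `Heis` configuration. -/
theorem heis_image [Finite G] (σ : G →* Module.End K W) (U Z : Subgroup G) (x : G) (hZU : Z ≤ U)
    (hUn : U.Normal) (hsup : U ⊔ Subgroup.zpowers x = ⊤) (hscal : ∀ z ∈ Z, ∃ c : K, σ z = c • 1)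
    (hcomm : ∀ a ∈ U, ∀ b ∈ U, a * b * a⁻¹ * b⁻¹ ∈ Z) (hker : ∃ z ∈ Z, σ z ≠ 1)
    (hirrU : ∀ V : Subgroup G, V ≤ U → V ≠ U → V.Normal → V ≤ Z) (hZ : Z ≤ ⁅U, U⁆)
    (hreg : ∀ i : ℕ, σ (x ^ i) ≠ 1 → ∀ g ∈ U, g * x ^ i * g⁻¹ * (x ^ i)⁻¹ ∈ Z → g ∈ Z)
    (hcop : (Nat.card (Z.map (toImg σ))).Coprime (Nat.card (Subgroup.zpowers (toImg σ x)))) :
    Heis (U.map (toImg σ)) (Subgroup.zpowers (toImg σ x)) (Z.map (toImg σ)) (Nat.card (Z.map (toImg σ))) := by
  have hfin := finite_img σ
  have hker1 : ∀ V : Subgroup G, (∀ v ∈ V, toImg σ v = 1) → ¬ Z ≤ V := by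
    intro V hV hZV
    obtain ⟨z, hz, hz1⟩ := hker
    apply hz1
    rw [← incl_toImg, hV z (hZV hz), map_one]
  have hK₀ : U ⊓ (toImg σ).ker ≤ Z := by
    apply hirrU _ inf_le_left
    · intro h
      apply hker1 (U ⊓ (toImg σ).ker) (fun v hv => hv.2)
      rw [h]; exact hZU
    · exact Subgroup.normal_inf_normal _ _
  have hUn' : (U.map (toImg σ)).Normal := hUn.map _ (toImg_surjective σ)
  refine ⟨hUn', ?_, Subgroup.map_mono hZU, ?_, ?_, ?_, ?_, rfl, ?_, hcop⟩
  · rw [← MonoidHom.map_zpowers, ← Subgroup.map_sup, hsup]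
    exact Subgroup.map_top_of_surjective _ (toImg_surjective σ)
  · rintro _ ⟨z, hz, rfl⟩ g
    apply incl_injective σ
    obtain ⟨c, hc⟩ := hscal z hz
    rw [map_mul, map_mul, incl_toImg, hc, smul_mul_assoc, one_mul, mul_smul_comm, mul_one]
  · rintro _ ⟨a, ha, rfl⟩ _ ⟨b, hb, rfl⟩
    refine ⟨a * b * a⁻¹ * b⁻¹, hcomm a ha b hb, ?_⟩
    simp only [map_mul, map_inv]
  · rintro _ ⟨g, hg, rfl⟩ hall
    have hC : U ⊓ (Subgroup.centralizer ((U.map (toImg σ) : Subgroup _) : Set (img σ))).comap (toImg σ) ≤ Z := by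
      apply hirrU _ inf_le_left
      · intro h
        apply hker1 ⁅U, U⁆ _ hZ
        intro v hv
        have h1 : ⁅U, U⁆ ≤ (toImg σ).ker := by
          rw [Subgroup.commutator_le]
          intro a ha b hb
          rw [MonoidHom.mem_ker, map_commutatorElement, commutatorElement_eq_one_iff_mul_comm]
          rw [← h] at ha
          exact (Subgroup.mem_centralizer_iff.mp ha.2 (toImg σ b) ⟨b, hb, rfl⟩).symm
        exact h1 hv
      · have h1 : (Subgroup.centralizer ((U.map (toImg σ) : Subgroup _) : Set (img σ))).Normal :=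
          Subgroup.normal_centralizer
        have h2 := h1.comap (toImg σ)
        exact Subgroup.normal_inf_normal _ _
    refine ⟨g, hC (Subgroup.mem_inf.mpr ⟨hg, ?_⟩), rfl⟩
    rw [Subgroup.mem_comap, Subgroup.mem_centralizer_iff]
    intro h hh
    exact hall h hh
  · rintro u hu hu1 _ ⟨g, hg, rfl⟩ hcommu
    obtain ⟨i, hi⟩ := mem_powers_iff_mem_zpowers.mpr hu
    have hi' : u = toImg σ (x ^ i) := by rw [map_pow]; exact hi.symm
    refine ⟨g, hreg i ?_ g hg ?_, rfl⟩
    · intro h
      apply hu1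
      apply incl_injective σ
      rw [hi', incl_toImg, h, map_one]
    · apply hK₀
      have hx1 : x ^ i * g⁻¹ * (x ^ i)⁻¹ ∈ U := hUn.conj_mem _ (inv_mem hg) _
      refine Subgroup.mem_inf.mpr ⟨?_, ?_⟩
      · have e : g * x ^ i * g⁻¹ * (x ^ i)⁻¹ = g * (x ^ i * g⁻¹ * (x ^ i)⁻¹) := by group
        rw [e]; exact mul_mem hg hx1
      · rw [MonoidHom.mem_ker]
        rw [hi'] at hcommu
        rw [map_mul, map_mul, map_mul, hcommu, map_inv, map_inv]
        group
  · intro a ha b hb
    obtain ⟨i, rfl⟩ := Subgroup.mem_zpowers_iff.mp ha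
    obtain ⟨j, rfl⟩ := Subgroup.mem_zpowers_iff.mp hb
    exact ((Commute.refl (toImg σ x)).zpow_zpow i j).eq

end Image

/-- the conclusion of the theorem. -/
def Concl (K : Type u) [Field K] (p q n : ℕ) {V : Type v} [AddCommGroup V] [Module K V] {G : Type w} [Group G]
    (Q : Subgroup G) (T : Module.End K V) (E : ℕ → Prop) : Prop :=
  (T - 1) ^ (p ^ n - 1) ≠ 0 ∨ ∃ n₀ m : ℕ, 1 ≤ n₀ ∧ n₀ ≤ n ∧ 1 ≤ m ∧ p ^ n₀ - 1 = q ^ m ∧
    (∃ a ∈ Q, ∃ b ∈ Q, a * b ≠ b * a) ∧ E n₀ ∧ (T - 1) ^ (p ^ (n - n₀) * (p ^ n₀ - 1) - 1) ≠ 0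

/-- the theorem for faithful representations and elements of order dividing `p^n`. -/
def Faith (K : Type u) [Field K] (p q n : ℕ) : Prop :=
  ∀ {V : Type v} [AddCommGroup V] [Module K V] [FiniteDimensional K V] {G : Type v} [Group G] [Finite G]
    (ρ : G →* Module.End K V), Function.Injective ρ → ∀ (Q : Subgroup G), IsPGroup q Q →
    ∀ x : G, x ∈ Subgroup.normalizer (Q : Set G) → x ^ (p ^ n) = 1 →
    (∃ g ∈ Q, x ^ (p ^ (n - 1)) * g ≠ g * x ^ (p ^ (n - 1))) →
    Concl K p q n Q (ρ x) (fun n₀ => n₀ = n ∨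
      ∃ z ∈ Q, x ^ (p ^ (n - 1)) * z = z * x ^ (p ^ (n - 1)) ∧ x * z ≠ z * x)

theorem nonfaith {K : Type u} [Field K] {p q n : ℕ} (hF : Faith.{u, v} K p q n) {V : Type v} [AddCommGroup V]
    [Module K V] [FiniteDimensional K V] {G : Type w} [Group G] [Finite G] (ρ : G →* Module.End K V)
    (Q : Subgroup G) (hQ : IsPGroup q Q) (x : G) (hxQ : x ∈ Subgroup.normalizer (Q : Set G))
    (hx : ρ x ^ (p ^ n) = 1) (hy : ∃ g ∈ Q, ρ (x ^ (p ^ (n - 1)) * g) ≠ ρ (g * x ^ (p ^ (n - 1)))) :
    Concl K p q n Q (ρ x) (fun _ => True) := by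
  have hfin := finite_img ρ
  have h := hF (incl ρ) (incl_injective ρ) (Q.map (toImg ρ)) (hQ.map _) (toImg ρ x) ?_ ?_ ?_
  · rcases h with h | ⟨n₀, m, h1, h2, h3, h4, ⟨_, ⟨a, ha, rfl⟩, _, ⟨b, hb, rfl⟩, hab⟩, _, h6⟩
    · exact Or.inl h
    · refine Or.inr ⟨n₀, m, h1, h2, h3, h4, ⟨a, ha, b, hb, ?_⟩, trivial, h6⟩
      intro hcon
      apply hab
      rw [← map_mul, hcon, map_mul]
  · have h1 := Subgroup.le_normalizer_map (H := Q) (toImg ρ)
    exact h1 ⟨x, hxQ, rfl⟩
  · apply incl_injective ρ
    rw [map_pow, incl_toImg, hx, map_one]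
  · obtain ⟨g, hg, hne⟩ := hy
    refine ⟨toImg ρ g, ⟨g, hg, rfl⟩, ?_⟩
    intro hcon
    apply hne
    rw [← incl_toImg ρ, ← incl_toImg ρ (g * x ^ p ^ (n - 1)), map_mul (toImg ρ), map_mul (toImg ρ),
      map_pow (toImg ρ), hcon]

/-- The minimal case. -/
theorem min_case {K : Type u} [Field K] [IsAlgClosed K] {p q : ℕ} [hp : Fact p.Prime] [hq : Fact q.Prime]
    [CharP K p] (hpq : p ≠ q) (n : ℕ) (hn : 1 ≤ n) (ih : ∀ m, 1 ≤ m → m < n → Faith.{u, v} K p q m)
    {V : Type v} [AddCommGroup V] [Module K V] [FiniteDimensional K V] {G : Type v} [Group G] [Finite G]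
    (ρ : G →* Module.End K V) (hρ : Function.Injective ρ) (U : Subgroup G) (hU : IsPGroup q U) (hUn : U.Normal)
    (x : G) (hsup : U ⊔ Subgroup.zpowers x = ⊤) (hx : x ^ (p ^ n) = 1)
    (hy : ∃ g ∈ U, x ^ (p ^ (n - 1)) * g ≠ g * x ^ (p ^ (n - 1)))
    (hmin : ∀ V ≤ U, V ≠ U → x ∈ Subgroup.normalizer (V : Set G) →
      ∀ v ∈ V, x ^ (p ^ (n - 1)) * v = v * x ^ (p ^ (n - 1))) :
    Concl K p q n U (ρ x) (fun n₀ => n₀ = n ∨
      ∃ z ∈ U, x ^ (p ^ (n - 1)) * z = z * x ^ (p ^ (n - 1)) ∧ x * z ≠ z * x) := by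
  classical
  set y := x ^ (p ^ (n - 1)) with hydef
  have hpn : p ^ n = p ^ (n - 1) * p := by rw [← pow_succ]; congr 1; omega
  have hyA : y ∈ Subgroup.zpowers x := Subgroup.pow_mem _ (Subgroup.mem_zpowers x) _
  have hBA : Subgroup.zpowers y ≤ Subgroup.zpowers x := by rw [Subgroup.zpowers_le]; exact hyA
  have hxU : x ∈ Subgroup.normalizer (U : Set G) := by rw [Subgroup.normalizer_eq_top]; trivial
  have hAU : Subgroup.zpowers x ≤ Subgroup.normalizer (U : Set G) := by rw [Subgroup.zpowers_le]; exact hxU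
  have hABn : Subgroup.zpowers x ≤ Subgroup.normalizer ((Subgroup.zpowers y : Subgroup G) : Set G) := by
    rw [Subgroup.zpowers_le, Subgroup.mem_normalizer_iff]
    have hcomm : ∀ h ∈ Subgroup.zpowers y, x * h * x⁻¹ = h := by
      intro h hh
      obtain ⟨i, hi⟩ := Subgroup.mem_zpowers_iff.mp (hBA hh)
      rw [← hi]
      group
    intro h
    constructor
    · intro hh
      rw [hcomm h hh]; exact hh
    · intro hh
      have h1 := hcomm _ hh
      have h2 : x * h * x⁻¹ = h := by
        have h3 : x * (x * h * x⁻¹) * x⁻¹ = x * h * x⁻¹ := h1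
        exact mul_left_cancel (mul_right_cancel h3)
      rwa [h2] at hh
  have hyord : orderOf y ∣ p ^ n := by
    apply orderOf_dvd_of_pow_eq_one
    rw [hydef, ← pow_mul, mul_comm, pow_mul, hx, one_pow]
  have hBcop : (Nat.card (Subgroup.zpowers y)).Coprime q := by
    rw [Nat.card_zpowers]
    apply Nat.Coprime.coprime_dvd_left hyord
    exact Nat.Coprime.pow_left n ((Nat.coprime_primes hp.out hq.out).mpr hpq)
  have hcent : ∀ W : Subgroup G, Subgroup.zpowers y ≤ Subgroup.centralizer (W : Set G) ↔ ∀ v ∈ W, y * v = v * y := by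
    intro W
    rw [Subgroup.zpowers_le, Subgroup.mem_centralizer_iff]
    exact ⟨fun h v hv => (h v hv).symm, fun h v hv => (h v hv).symm⟩
  have hcon : ¬ Subgroup.zpowers y ≤ Subgroup.centralizer (U : Set G) := by
    rw [hcent]
    intro h
    obtain ⟨g, hg, hne⟩ := hy
    exact hne (h g hg)
  obtain ⟨U₁, hU₁, hAU₁, hBU₁, hUB, _, hFB, hFU, hpow, hcommF⟩ :=
    exists_minimal2 U (Subgroup.zpowers x) (Subgroup.zpowers y) hU hBcop hBA hABn hAU hcon
  have hU₁U : U₁ = U := by
    by_contra hne
    exact hBU₁ ((hcent U₁).mpr (hmin U₁ hU₁ hne (hAU₁ (Subgroup.mem_zpowers x))))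
  subst hU₁U
  have hpeq : ∀ t, t ≤ n - 1 → y = (x ^ (p ^ t)) ^ (p ^ (n - 1 - t)) := by
    intro t ht
    rw [hydef, ← pow_mul, ← pow_add]
    congr 2
    omega
  by_cases hab : ∀ a ∈ U₁, ∀ b ∈ U₁, a * b = b * a
  · -- abelian case
    left
    have hUK : (Nat.card U₁ : K) ≠ 0 := card_ne_zero hpq hU
    have hUρ : ∀ a ∈ U₁, ∀ b ∈ U₁, ρ a * ρ b = ρ b * ρ a := by
      intro a ha b hb
      rw [← map_mul, hab a ha b hb, map_mul]
    have hex : ∃ l : G → K, ∃ v ∈ wt ρ U₁ l, v ≠ 0 ∧ y ∉ stab U₁ l := by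
      by_contra hall
      push Not at hall
      obtain ⟨g, hg, hne⟩ := hy
      apply hne
      apply hρ
      rw [map_mul, map_mul]
      apply ext_wt ρ U₁ hUK hUρ
      intro l v hv hv0
      have h1 := hall l v hv hv0
      have h2 := apply_mem_wt_of_stab ρ h1 hv
      rw [Module.End.mul_apply, Module.End.mul_apply, h2 g hg, hv g hg, map_smul]
    obtain ⟨l, v, hv, hv0, hyl⟩ := hex
    have h1 : x ^ (p ^ n) ∈ stab U₁ l := by rw [hx]; exact one_mem _
    obtain ⟨t, htn, ht, htmin⟩ := exists_least hp.out h1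
    have htn' : t = n := by
      by_contra hne
      apply hyl
      rw [hpeq t (by omega)]
      exact pow_mem ht _
    subst htn'
    intro h0
    apply sub_one_pow_ne_zero ρ hxU t htmin hv hv0
    rw [h0, LinearMap.zero_apply]
  · -- non-abelian case
    have hne : ∃ a ∈ U₁, ∃ b ∈ U₁, a * b ≠ b * a := by
      push Not at hab
      exact hab
    set Z : Subgroup G := (frattini U₁).map U₁.subtype with hZdef
    have hZU : Z ≤ U₁ := Subgroup.map_subtype_le _
    have hZne : Z ≠ U₁ := by
      intro h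
      obtain ⟨a, ha, b, hb, hne⟩ := hne
      rw [← h] at hb
      exact hne (hFU b hb a ha)
    have hAZ : Subgroup.zpowers x ≤ Subgroup.normalizer (Z : Set G) :=
      hAU.trans (Cfsg.Agent.Lib.PCoreTools.normalizer_le_of_characteristic frattini_characteristic)
    have hxZ : x ∈ Subgroup.normalizer (Z : Set G) := hAZ (Subgroup.mem_zpowers x)
    have hUZ : U₁ ≤ Subgroup.normalizer (Z : Set G) :=
      (Subgroup.le_normalizer (H := U₁)).trans
        (Cfsg.Agent.Lib.PCoreTools.normalizer_le_of_characteristic frattini_characteristic)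
    have hZn : Z.Normal := by
      rw [← Subgroup.normalizer_eq_top_iff, eq_top_iff, ← hsup]
      exact sup_le hUZ hAZ
    have hUUZ : ⁅U₁, U₁⁆ ≤ Z := by
      rw [Subgroup.commutator_le]
      intro a ha b hb
      exact hcommF a ha b hb
    have hirrU' : ∀ V : Subgroup G, V ≤ U₁ → V ≠ U₁ → x ∈ Subgroup.normalizer (V : Set G) → V ≤ ⁅U₁, U₁⁆ := by
      intro W hW hWne hxW v hv
      have h1 := hmin W hW hWne hxW v hv
      apply mem_commutator_of_centralized U₁ (Subgroup.zpowers y) hU hBcop (hBA.trans hAU) hUB (hW hv)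
      intro b hb
      obtain ⟨i, rfl⟩ := Subgroup.mem_zpowers_iff.mp hb
      have h2 : Commute y v := h1
      exact (h2.zpow_left i).eq
    have hirrU : ∀ V : Subgroup G, V ≤ U₁ → V ≠ U₁ → x ∈ Subgroup.normalizer (V : Set G) → V ≤ Z :=
      fun V h1 h2 h3 => (hirrU' V h1 h2 h3).trans hUUZ
    have hZle : Z ≤ ⁅U₁, U₁⁆ := hirrU' Z hZU hZne hxZ
    have hyZ : ∀ z ∈ Z, y * z = z * y := hmin Z hZU hZne hxZ
    have hZq : IsPGroup q Z := hU.to_le hZU
    have hZK : (Nat.card Z : K) ≠ 0 := card_ne_zero hpq hZq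
    have hZab : ∀ a ∈ Z, ∀ b ∈ Z, ρ a * ρ b = ρ b * ρ a := by
      intro a ha b hb
      rw [← map_mul, hFU b hb a (hZU ha), map_mul]
    -- a non-trivial weight
    have hex : ∃ l : G → K, ∃ v ∈ wt ρ Z l, v ≠ 0 ∧ ∃ z ∈ Z, l z ≠ 1 := by
      by_contra hall
      push Not at hall
      have h1 : ∀ z ∈ Z, z = 1 := by
        intro z hz
        apply hρ
        rw [map_one]
        apply ext_wt ρ Z hZK hZab
        intro l v hv hv0
        rw [hv z hz, hall l v hv hv0 z hz, one_smul]
        rfl
      obtain ⟨a, ha, b, hb, hne⟩ := hne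
      apply hne
      have h2 := h1 _ (hcommF a ha b hb)
      calc a * b = (a * b * a⁻¹ * b⁻¹) * (b * a) := by group
        _ = b * a := by rw [h2, one_mul]
    obtain ⟨l, v₀, hv₀, hv₀0, z₀, hz₀, hlz₀⟩ := hex
    have hUstab : U₁ ≤ stab Z l := by
      intro g hg
      refine ⟨hUZ hg, ?_⟩
      intro a ha
      have h1 := hFU a ha g hg
      have h2 : g⁻¹ * a * g = a := by
        rw [mul_assoc, ← h1]; group
      rw [h2]
    have hystab : x ^ (p ^ (n - 1)) ∈ stab Z l := by
      refine ⟨pow_mem hxZ _, ?_⟩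
      intro a ha
      have h1 := hyZ a ha
      have h2 : (x ^ p ^ (n - 1))⁻¹ * a * x ^ p ^ (n - 1) = a := by
        change y⁻¹ * a * y = a
        rw [mul_assoc, ← h1]; group
      rw [h2]
    obtain ⟨t, htn, ht, htmin⟩ := exists_least hp.out hystab
    have hWbot : wt ρ Z l ≠ ⊥ := by
      intro h
      rw [h] at hv₀
      exact hv₀0 ((Submodule.mem_bot K).mp hv₀)
    -- elements acting like commuting ones
    have hUact : ∀ (H : Subgroup G) (hH : U₁ ≤ H) (hyH : y ∈ H) {W : Type v} [AddCommGroup W] [Module K W]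
        (σ : H →* Module.End K W),
        (∀ g (hg : g ∈ U₁), σ (⟨y, hyH⟩ * ⟨g, hH hg⟩) = σ (⟨g, hH hg⟩ * ⟨y, hyH⟩)) →
        ∀ g (hg : g ∈ U₁), σ ⟨g, hH hg⟩ = 1 := by
      intro H hH hyH W _ _ σ hσ
      let N : Subgroup G := (σ.toHomUnits.ker).map H.subtype
      have hN : ∀ g (hg : g ∈ H), σ ⟨g, hg⟩ = 1 ↔ g ∈ N := by
        intro g hg
        constructor
        · intro h
          exact ⟨⟨g, hg⟩, Units.ext h, rfl⟩
        · rintro ⟨g', hg', hgg'⟩
          have h1 : g' = ⟨g, hg⟩ := Subtype.ext hgg'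
          rw [h1] at hg'
          exact congrArg Units.val hg'
      have hBH : Subgroup.zpowers y ≤ H := by rw [Subgroup.zpowers_le]; exact hyH
      have hle : ⁅U₁, Subgroup.zpowers y⁆ ≤ N := by
        rw [Subgroup.commutator_le]
        intro g hg b hb
        obtain ⟨i, rfl⟩ := Subgroup.mem_zpowers_iff.mp hb
        have h0 : (⟨g, hH hg⟩ * ⟨y, hyH⟩ : H) = ⟨g, hH hg⟩ * ⟨y, hyH⟩ := rfl
        have h1 : Commute (σ.toHomUnits ⟨y, hyH⟩) (σ.toHomUnits ⟨g, hH hg⟩) := by
          apply Units.ext
          have := hσ g hg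
          rw [map_mul, map_mul] at this
          exact this
        have h2 := (h1.zpow_left i).eq
        refine ⟨⟨⁅g, y ^ i⁆, ?_⟩, ?_, rfl⟩
        · rw [commutatorElement_def]
          have hyi : y ^ i ∈ H := H.zpow_mem hyH i
          exact mul_mem (mul_mem (mul_mem (hH hg) hyi) (inv_mem (hH hg))) (inv_mem hyi)
        · have h3 : (⟨⁅g, y ^ i⁆, (by
              rw [commutatorElement_def]
              have hyi : y ^ i ∈ H := H.zpow_mem hyH i
              exact mul_mem (mul_mem (mul_mem (hH hg) hyi) (inv_mem (hH hg))) (inv_mem hyi))⟩ : H) =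
              ⁅(⟨g, hH hg⟩ : H), (⟨y, hyH⟩ : H) ^ i⁆ := rfl
          rw [SetLike.mem_coe, MonoidHom.mem_ker, h3, map_commutatorElement,
            commutatorElement_eq_one_iff_mul_comm, map_zpow]
          exact h2.symm
      rw [hUB] at hle
      intro g hg
      exact (hN g (hH hg)).mpr (hle hg)
    rcases Nat.eq_zero_or_pos t with ht0 | ht0
    · -- the case t = 0
      have hxst : x ∈ stab Z l := by
        rw [ht0, pow_zero, pow_one] at ht; exact ht
      have hstop : ∀ g : G, g ∈ stab Z l := by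
        intro g
        have h1 : U₁ ⊔ Subgroup.zpowers x ≤ stab Z l := sup_le hUstab (by rw [Subgroup.zpowers_le]; exact hxst)
        rw [hsup] at h1
        exact h1 trivial
      have hinv : Inv ρ (wt ρ Z l) := fun g v hv => apply_mem_wt_of_stab ρ (hstop g) hv
      obtain ⟨W₁, h₁, hW₁, hW₁0, hirr⟩ := exists_irr_sub ρ (wt ρ Z l) hWbot hinv
      set σ := subrep ρ W₁ h₁ with hσdef
      have hscal : ∀ z ∈ Z, σ z = l z • 1 := by
        intro z hz
        apply LinearMap.ext
        intro w
        apply Subtype.ext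
        exact hW₁ w.2 z hz
      have hnt := hirr.nt
      have hz₀σ : σ z₀ ≠ 1 := by
        intro h
        rw [hscal z₀ hz₀] at h
        obtain ⟨w, hw⟩ := exists_ne (0 : W₁)
        have h1 := LinearMap.congr_fun h w
        rw [LinearMap.smul_apply, Module.End.one_apply] at h1
        have h2 : (l z₀ - 1) • w = 0 := by rw [sub_smul, h1, one_smul, sub_self]
        rcases smul_eq_zero.mp h2 with h3 | h3
        · exact hlz₀ (sub_eq_zero.mp h3)
        · exact hw h3
      have hyσ : σ y ≠ 1 := by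
        intro h
        apply hz₀σ
        have h1 := hUact ⊤ le_top trivial (σ.comp (⊤ : Subgroup G).subtype) (by
          intro g hg
          change σ (y * g) = σ (g * y)
          rw [map_mul, map_mul, h, one_mul, mul_one]) z₀ (hZU hz₀)
        exact h1
      by_cases hnil : (ρ x - 1) ^ (p ^ n - 1) = 0
      · right
        have hnilσ : (σ x - 1) ^ (p ^ n - 1) = 0 := by
          apply LinearMap.ext
          intro w
          apply Subtype.ext
          rw [subrep_sub_one_pow, hnil]
          rfl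
        have hord : orderOf (toImg σ x) = p ^ n := by
          have h1 : n = (n - 1) + 1 := by omega
          rw [h1]
          apply orderOf_eq_prime_pow
          · intro h
            apply hyσ
            rw [← incl_toImg σ y, hydef, map_pow, h, map_one]
          · rw [← h1, ← map_pow, hx, map_one]
        have hcop : (Nat.card (Z.map (toImg σ))).Coprime (Nat.card (Subgroup.zpowers (toImg σ x))) := by
          have hfin := finite_img σ
          rw [Nat.card_zpowers, hord]
          obtain ⟨k, hk⟩ := IsPGroup.iff_card.mp (hZq.map (toImg σ))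
          rw [hk]
          exact Nat.Coprime.pow _ _ ((Nat.coprime_primes hq.out hp.out).mpr (Ne.symm hpq))
        have hreg : ∀ i : ℕ, σ (x ^ i) ≠ 1 → ∀ g ∈ U₁, g * x ^ i * g⁻¹ * (x ^ i)⁻¹ ∈ Z → g ∈ Z := by
          intro i hi g hg hgZ
          let D : Subgroup G := U₁ ⊓ (Subgroup.centralizer ({(QuotientGroup.mk' Z (x ^ i))} : Set (G ⧸ Z))).comap
            (QuotientGroup.mk' Z)
          have hDmem : ∀ h, h ∈ D ↔ h ∈ U₁ ∧ QuotientGroup.mk' Z h * QuotientGroup.mk' Z (x ^ i) =
              QuotientGroup.mk' Z (x ^ i) * QuotientGroup.mk' Z h := by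
            intro h
            rw [Subgroup.mem_inf, Subgroup.mem_comap, Subgroup.mem_centralizer_singleton_iff]
          have hconj : ∀ e : ℤ, ∀ h ∈ D, x ^ e * h * (x ^ e)⁻¹ ∈ D := by
            intro e h hh
            rw [hDmem] at hh ⊢
            refine ⟨hUn.conj_mem h hh.1 _, ?_⟩
            have hc1 : Commute (QuotientGroup.mk' Z h) (QuotientGroup.mk' Z (x ^ i)) := hh.2
            have hc2 : Commute (QuotientGroup.mk' Z (x ^ e)) (QuotientGroup.mk' Z (x ^ i)) := by
              have hc3 : Commute (x ^ e) (x ^ i) := by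
                have := (Commute.refl x).zpow_zpow e (i : ℤ)
                rwa [zpow_natCast] at this
              exact hc3.map _
            rw [map_mul, map_mul, map_inv]
            exact ((hc2.mul_left hc1).mul_left hc2.inv_left).eq
          have hxD : x ∈ Subgroup.normalizer (D : Set G) := by
            rw [Subgroup.mem_normalizer_iff]
            intro h
            constructor
            · intro hh
              have := hconj 1 h hh
              rwa [zpow_one] at this
            · intro hh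
              have := hconj (-1) _ hh
              rw [zpow_neg_one, inv_inv] at this
              have e : x⁻¹ * (x * h * x⁻¹) * x = h := by group
              rwa [e] at this
          have hDne : D ≠ U₁ := by
            intro hD
            -- `y` is a power of `x^i`
            have hxi : x ^ i ≠ 1 := by
              intro h; apply hi; rw [h, map_one]
            have hyi : y ∈ Subgroup.zpowers (x ^ i) := by
              have h1 : x ^ (p ^ n) ∈ Subgroup.zpowers (x ^ i) := by rw [hx]; exact one_mem _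
              obtain ⟨s, hsn, hs, hsmin⟩ := exists_least hp.out h1
              have hsn' : s ≤ n - 1 := by
                by_contra hcon
                have hs' : s = n := by omega
                rw [hs'] at hsmin
                have h2 : x ^ (i % p ^ n) = x ^ i := by
                  conv_rhs => rw [← Nat.mod_add_div i (p ^ n), pow_add, pow_mul, hx, one_pow, mul_one]
                apply hsmin (i % p ^ n) _ (Nat.mod_lt _ (pow_pos hp.out.pos n))
                · rw [h2]; exact Subgroup.mem_zpowers _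
                · rw [Nat.pos_iff_ne_zero]
                  intro h
                  rw [h, pow_zero] at h2
                  exact hxi h2.symm
              rw [hpeq s hsn']
              exact pow_mem hs _
            apply hZne
            apply le_antisymm hZU
            rw [← hUB]
            rw [Subgroup.commutator_le]
            intro a ha b hb
            have hb' : b ∈ Subgroup.zpowers (x ^ i) := by
              obtain ⟨j, rfl⟩ := Subgroup.mem_zpowers_iff.mp hb
              exact zpow_mem hyi j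
            obtain ⟨j, rfl⟩ := Subgroup.mem_zpowers_iff.mp hb'
            have ha' : a ∈ D := by rw [hD]; exact ha
            have hc1 : Commute (QuotientGroup.mk' Z a) (QuotientGroup.mk' Z (x ^ i)) := ((hDmem a).mp ha').2
            have hc2 := (hc1.zpow_right j).eq
            rw [← map_zpow] at hc2
            have h3 : QuotientGroup.mk' Z ⁅a, (x ^ i) ^ j⁆ = 1 := by
              rw [map_commutatorElement, commutatorElement_eq_one_iff_mul_comm]
              exact hc2
            exact (QuotientGroup.eq_one_iff _).mp h3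
          apply hirrU D inf_le_left hDne hxD
          rw [hDmem]
          refine ⟨hg, ?_⟩
          have h3 : QuotientGroup.mk' Z (g * x ^ i * g⁻¹ * (x ^ i)⁻¹) = 1 := (QuotientGroup.eq_one_iff _).mpr hgZ
          rw [← commutatorElement_eq_one_iff_mul_comm, ← map_commutatorElement, commutatorElement_def]
          exact h3
        have H := heis_image σ U₁ Z x hZU hUn hsup (fun z hz => ⟨l z, hscal z hz⟩) hcommF ⟨z₀, hz₀, hz₀σ⟩
          (fun W h1 h2 h3 => hirrU W h1 h2 (by rw [Subgroup.normalizer_eq_top]; trivial)) hZle hreg hcop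
        have hfin := finite_img σ
        have hcr := crit_heis (K := K) hpq H (ρ := incl σ) (irr_incl hirr) (hU.map _) ?_ ?_ ?_ n hn hord hnilσ
        · obtain ⟨m, hm1, hm2, hm3⟩ := hcr
          refine ⟨n, m, hn, le_rfl, hm1, hm2, hne, Or.inl rfl, ?_⟩
          rw [Nat.sub_self, pow_zero, one_mul]
          intro h0
          apply hm3
          apply LinearMap.ext
          intro w
          apply Subtype.ext
          change (((σ x - 1) ^ (p ^ n - 1 - 1)) w : V) = 0
          rw [subrep_sub_one_pow, h0]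
          rfl
        · rintro _ ⟨z, hz, rfl⟩
          exact ⟨l z, hscal z hz⟩
        · intro z _ hz1 h
          apply hz1
          apply incl_injective σ
          rw [h, map_one]
        · by_contra hall
          push Not at hall
          apply hz₀σ
          have h1 : ⁅U₁, U₁⁆ ≤ (toImg σ).ker := by
            rw [Subgroup.commutator_le]
            intro a ha b hb
            rw [MonoidHom.mem_ker, map_commutatorElement, commutatorElement_eq_one_iff_mul_comm]
            exact hall _ ⟨a, ha, rfl⟩ _ ⟨b, hb, rfl⟩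
          have h2 : toImg σ z₀ = 1 := h1 (hZle hz₀)
          rw [← incl_toImg, h2, map_one]
      · exact Or.inl hnil
    · -- the case t > 0
      have hinv : Inv (ρ.comp (stab Z l).subtype) (wt ρ Z l) := fun g v hv => apply_mem_wt_of_stab ρ g.2 hv
      set ρ' := subrep (ρ.comp (stab Z l).subtype) (wt ρ Z l) hinv with hρ'
      have hyS : y ∈ stab Z l := hystab
      have hyx : (⟨x ^ p ^ t, ht⟩ : stab Z l) ^ (p ^ (n - t - 1)) = ⟨y, hyS⟩ := by
        apply Subtype.ext
        change (x ^ p ^ t) ^ (p ^ (n - t - 1)) = y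
        rw [hpeq t htn]
        congr 2
        omega
      have hlift : ∀ r, (ρ' ⟨x ^ p ^ t, ht⟩ - 1) ^ (r - 1) ≠ 0 → 1 ≤ r → (ρ x - 1) ^ (p ^ t * r - 1) ≠ 0 := by
        intro r hr hr1 h0
        have h1 : ∃ w, ((ρ' ⟨x ^ p ^ t, ht⟩ - 1) ^ (r - 1)) w ≠ 0 := by
          by_contra hall
          push Not at hall
          exact hr (LinearMap.ext hall)
        obtain ⟨w, hw⟩ := h1
        set w' := ((ρ' ⟨x ^ p ^ t, ht⟩ - 1) ^ (r - 1)) w with hw'
        have h2 : (w' : V) = ((ρ x - 1) ^ (p ^ t * (r - 1))) (w : V) := by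
          rw [hw', subrep_sub_one_pow, pow_mul, sub_one_pow (K := K) (p := p)]
          rw [← map_pow]
          rfl
        have h3 : p ^ t * r - 1 = (p ^ t - 1) + p ^ t * (r - 1) := by
          obtain ⟨s, rfl⟩ : ∃ s, r = s + 1 := ⟨r - 1, by omega⟩
          have h4 : 0 < p ^ t := pow_pos hp.out.pos t
          rw [Nat.add_sub_cancel, mul_add, mul_one]
          omega
        have h4 := sub_one_pow_ne_zero ρ hxZ t htmin w'.2 (fun h => hw (Subtype.ext h))
        apply h4
        rw [h2, ← Module.End.mul_apply, ← pow_add, ← h3, h0, LinearMap.zero_apply]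
      have hmove : ∃ z ∈ U₁, y * z = z * y ∧ x * z ≠ z * x := by
        have h1 : x ^ 1 ∉ stab Z l := htmin 1 one_pos (Nat.one_lt_pow (by omega) hp.out.one_lt)
        rw [pow_one] at h1
        by_contra hall
        push Not at hall
        apply h1
        refine ⟨hxZ, ?_⟩
        intro a ha
        have h2 := hall a (hZU ha) (hyZ a ha)
        have h3 : x⁻¹ * a * x = a := by
          rw [mul_assoc, ← h2]; group
        rw [h3]
      have hN := nonfaith (ih (n - t) (by omega) (by omega)) ρ' (U₁.subgroupOf (stab Z l)) hU.comap_subtype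
        ⟨x ^ p ^ t, ht⟩ ?_ ?_ ?_
      · rcases hN with h | ⟨n₀, m, h1, h2, h3, h4, _, _, h6⟩
        · left
          have h5 := hlift (p ^ (n - t)) h (Nat.one_le_iff_ne_zero.mpr (pow_ne_zero _ hp.out.ne_zero))
          rw [← pow_add] at h5
          have h6 : t + (n - t) = n := by omega
          rwa [h6] at h5
        · right
          refine ⟨n₀, m, h1, by omega, h3, h4, hne, Or.inr hmove, ?_⟩
          have h5 := hlift (p ^ (n - t - n₀) * (p ^ n₀ - 1)) h6 (by
            rw [h4, Nat.one_le_iff_ne_zero]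
            exact mul_ne_zero (pow_ne_zero _ hp.out.ne_zero) (pow_ne_zero _ hq.out.ne_zero))
          rw [← mul_assoc, ← pow_add] at h5
          have h7 : t + (n - t - n₀) = n - n₀ := by omega
          rwa [h7] at h5
      · -- normalizer
        rw [Subgroup.mem_normalizer_iff]
        intro g
        rw [Subgroup.mem_subgroupOf, Subgroup.mem_subgroupOf]
        exact Subgroup.mem_normalizer_iff.mp (pow_mem hxU (p ^ t)) g
      · rw [← map_pow]
        have h1 : (⟨x ^ p ^ t, ht⟩ : stab Z l) ^ p ^ (n - t) = 1 := by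
          apply Subtype.ext
          change (x ^ p ^ t) ^ p ^ (n - t) = 1
          rw [← pow_mul, ← pow_add]
          have h6 : t + (n - t) = n := by omega
          rw [h6, hx]
        rw [h1, map_one]
      · by_contra hall
        push Not at hall
        rw [hyx] at hall
        have h1 := hUact (stab Z l) hUstab hyS ρ' (fun g hg => hall ⟨g, hUstab hg⟩ hg) z₀ (hZU hz₀)
        have h2 := LinearMap.congr_fun h1 ⟨v₀, hv₀⟩
        have h3 : ρ z₀ v₀ = v₀ := congrArg Subtype.val h2
        rw [hv₀ z₀ hz₀] at h3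
        have h4 : (l z₀ - 1) • v₀ = 0 := by rw [sub_smul, h3, one_smul, sub_self]
        rcases smul_eq_zero.mp h4 with h5 | h5
        · exact hlz₀ (sub_eq_zero.mp h5)
        · exact hv₀0 h5

end Cfsg.Agent.Lib.HHMain
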