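import Mathlib
import Cfsg.Agent.Lib.HHMain

/-! The Hall-Higman theorem over algebraically closed fields: final form (helper63). -/

set_option autoImplicit false
open scoped commutatorElement

namespace Cfsg.Agent.Lib.HHMain

open Module Cfsg.Agent.Lib.ModRep Cfsg.Agent.Lib.HHLin Cfsg.Agent.Lib.HHWt Cfsg.Agent.Lib.HHCrit
  Cfsg.Agent.Lib.HHMin Cfsg.Agent.Lib.BG02

universe u v w

/-- The theorem for faithful representations. -/
theorem faith {K : Type u} [Field K] [IsAlgClosed K] {p q : ℕ} [hp : Fact p.Prime] [hq : Fact q.Prime]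
    [CharP K p] (hpq : p ≠ q) : ∀ n : ℕ, 1 ≤ n → Faith.{u, v} K p q n := by
  intro n
  induction n using Nat.strong_induction_on with
  | _ n ih =>
    intro hn V _ _ _ G _ _ ρ hρ Q hQ x hxQ hx hy
    classical
    set y := x ^ (p ^ (n - 1)) with hydef
    -- minimal invariant subgroup
    have hne : ({U : Subgroup G | U ≤ Q ∧ x ∈ Subgroup.normalizer (U : Set G) ∧
        ∃ g ∈ U, y * g ≠ g * y}).Nonempty := ⟨Q, le_rfl, hxQ, hy⟩
    obtain ⟨U, hU⟩ := Set.Finite.exists_minimal (Set.toFinite _) hne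
    obtain ⟨hUQ, hxU, g₀, hg₀, hg₀y⟩ := hU.prop
    have hmin : ∀ V : Subgroup G, V ≤ U → V ≠ U → x ∈ Subgroup.normalizer (V : Set G) →
        ∀ v ∈ V, y * v = v * y := by
      intro V hVU hVne hxV
      by_contra hcon
      push Not at hcon
      exact hVne (le_antisymm hVU (hU.le_of_le ⟨hVU.trans hUQ, hxV, hcon⟩ hVU))
    set H := U ⊔ Subgroup.zpowers x with hH
    have hUH : U ≤ H := le_sup_left
    have hxH : x ∈ H := (le_sup_right : Subgroup.zpowers x ≤ H) (Subgroup.mem_zpowers x)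
    have hHn : H ≤ Subgroup.normalizer (U : Set G) :=
      sup_le Subgroup.le_normalizer (by rw [Subgroup.zpowers_le]; exact hxU)
    have hUn : (U.subgroupOf H).Normal := Subgroup.normal_subgroupOf_of_le_normalizer hHn
    have hρ' : Function.Injective (ρ.comp H.subtype) := hρ.comp H.subtype_injective
    have hypow : ((⟨x, hxH⟩ : H) ^ p ^ (n - 1) : H) = ⟨y, by rw [hydef]; exact pow_mem hxH _⟩ := rfl
    have hmc := min_case (K := K) hpq n hn (fun m h1 h2 => ih m h2 h1) (ρ.comp H.subtype) hρ' (U.subgroupOf H)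
      ((hQ.to_le hUQ).comap_subtype) hUn ⟨x, hxH⟩ ?_ (Subtype.ext hx) ?_ ?_
    · rcases hmc with h | ⟨n₀, m, h1, h2, h3, h4, ⟨a, ha, b, hb, hab⟩, h5, h6⟩
      · exact Or.inl h
      · refine Or.inr ⟨n₀, m, h1, h2, h3, h4, ⟨a, hUQ ha, b, hUQ hb, fun h => hab (Subtype.ext h)⟩, ?_, h6⟩
        rcases h5 with h5 | ⟨z, hz, hz1, hz2⟩
        · exact Or.inl h5
        · exact Or.inr ⟨z, hUQ hz, congrArg (Subtype.val : H → G) hz1, fun h => hz2 (Subtype.ext h)⟩
    · have h1 : Subgroup.zpowers (⟨x, hxH⟩ : H) = (Subgroup.zpowers x).subgroupOf H := by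
        ext g
        rw [Subgroup.mem_subgroupOf, Subgroup.mem_zpowers_iff, Subgroup.mem_zpowers_iff]
        constructor
        · rintro ⟨k, rfl⟩
          exact ⟨k, rfl⟩
        · rintro ⟨k, hk⟩
          exact ⟨k, Subtype.ext hk⟩
      rw [h1, ← Subgroup.subgroupOf_sup hUH le_sup_right, ← hH, Subgroup.subgroupOf_self]
    · exact ⟨⟨g₀, hUH hg₀⟩, hg₀, fun h => hg₀y (congrArg (Subtype.val : H → G) h)⟩
    · intro W hW hWne hxW v hv
      have h1 := hmin (W.map H.subtype) ?_ ?_ ?_ v ⟨v, hv, rfl⟩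
      · exact Subtype.ext h1
      · rintro _ ⟨w, hw, rfl⟩
        exact hW hw
      · intro h
        apply hWne
        apply Subgroup.map_injective H.subtype_injective
        rw [h, Subgroup.subgroupOf_map_subtype, inf_eq_left.mpr hUH]
      · have h2 := Subgroup.le_normalizer_map (H := W) H.subtype
        exact h2 ⟨⟨x, hxH⟩, hxW, rfl⟩

/-- Hall-Higman: general form over an algebraically closed field, representation of a finite group. -/
theorem main {K : Type u} [Field K] [IsAlgClosed K] {p q : ℕ} [hp : Fact p.Prime] [hq : Fact q.Prime]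
    [CharP K p] (hpq : p ≠ q) {n : ℕ} (hn : 1 ≤ n) {V : Type v} [AddCommGroup V]
    [Module K V] [FiniteDimensional K V] {G : Type w} [Group G] [Finite G] (ρ : G →* Module.End K V)
    (Q : Subgroup G) (hQ : IsPGroup q Q) (x : G) (hxQ : x ∈ Subgroup.normalizer (Q : Set G))
    (hx : ρ x ^ (p ^ n) = 1) (hy : ∃ g ∈ Q, ρ (x ^ (p ^ (n - 1)) * g) ≠ ρ (g * x ^ (p ^ (n - 1)))) :
    Concl K p q n Q (ρ x) (fun _ => True) :=
  nonfaith (faith hpq n hn) ρ Q hQ x hxQ hx hy

/-- Hall-Higman for faithful representations, with the additional information on `n₀ < n`. -/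
theorem main_faithful {K : Type u} [Field K] [IsAlgClosed K] {p q : ℕ} [hp : Fact p.Prime] [hq : Fact q.Prime]
    [CharP K p] (hpq : p ≠ q) {n : ℕ} (hn : 1 ≤ n) {V : Type v} [AddCommGroup V]
    [Module K V] [FiniteDimensional K V] {G : Type w} [Group G] [Finite G] (ρ : G →* Module.End K V)
    (hρ : Function.Injective ρ) (Q : Subgroup G) (hQ : IsPGroup q Q) (x : G)
    (hxQ : x ∈ Subgroup.normalizer (Q : Set G)) (hx : x ^ (p ^ n) = 1)
    (hy : ∃ g ∈ Q, x ^ (p ^ (n - 1)) * g ≠ g * x ^ (p ^ (n - 1))) :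
    Concl K p q n Q (ρ x) (fun n₀ => n₀ = n ∨
      ∃ z ∈ Q, x ^ (p ^ (n - 1)) * z = z * x ^ (p ^ (n - 1)) ∧ x * z ≠ z * x) := by
  have hfin := finite_img ρ
  have hinj : Function.Injective (toImg ρ) := by
    intro a b h
    apply hρ
    rw [← incl_toImg, h, incl_toImg]
  have h := faith hpq n hn (incl ρ) (incl_injective ρ) (Q.map (toImg ρ)) (hQ.map _) (toImg ρ x) ?_ ?_ ?_
  · rcases h with h | ⟨n₀, m, h1, h2, h3, h4, ⟨_, ⟨a, ha, rfl⟩, _, ⟨b, hb, rfl⟩, hab⟩, h5, h6⟩
    · exact Or.inl h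
    · refine Or.inr ⟨n₀, m, h1, h2, h3, h4, ⟨a, ha, b, hb, ?_⟩, ?_, h6⟩
      · intro hcon
        apply hab
        rw [← map_mul, hcon, map_mul]
      · rcases h5 with h5 | ⟨_, ⟨z, hz, rfl⟩, hz1, hz2⟩
        · exact Or.inl h5
        · refine Or.inr ⟨z, hz, ?_, ?_⟩
          · apply hinj
            rw [map_mul, map_mul, map_pow]
            exact hz1
          · intro hcon
            apply hz2
            rw [← map_mul, hcon, map_mul]
  · have h1 := Subgroup.le_normalizer_map (H := Q) (toImg ρ)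
    exact h1 ⟨x, hxQ, rfl⟩
  · rw [← map_pow, hx, map_one]
  · obtain ⟨g, hg, hne⟩ := hy
    refine ⟨toImg ρ g, ⟨g, hg, rfl⟩, ?_⟩
    intro hcon
    apply hne
    apply hinj
    rw [map_mul, map_mul, map_pow]
    exact hcon

/-- Hall-Higman over an arbitrary field. -/
theorem main_field {F : Type u} [Field F] {p q : ℕ} [hp : Fact p.Prime] [hq : Fact q.Prime]
    [CharP F p] (hpq : p ≠ q) {n : ℕ} (hn : 1 ≤ n) {V : Type v} [AddCommGroup V]
    [Module F V] [FiniteDimensional F V] {G : Type w} [Group G] [Finite G] (ρ : G →* Module.End F V)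
    (Q : Subgroup G) (hQ : IsPGroup q Q) (x : G) (hxQ : x ∈ Subgroup.normalizer (Q : Set G))
    (hx : ρ x ^ (p ^ n) = 1) (hy : ∃ g ∈ Q, ρ (x ^ (p ^ (n - 1)) * g) ≠ ρ (g * x ^ (p ^ (n - 1)))) :
    Concl F p q n Q (ρ x) (fun _ => True) := by
  have hinj : Function.Injective (Module.End.baseChangeHom F (AlgebraicClosure F) V) :=
    LinearMap.baseChangeHom_injective F V (AlgebraicClosure F)
  have hch : CharP (AlgebraicClosure F) p := charP_of_injective_algebraMap (algebraMap F (AlgebraicClosure F)).injective p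
  set B := Module.End.baseChangeHom F (AlgebraicClosure F) V with hB
  have h := main (K := AlgebraicClosure F) (V := TensorProduct F (AlgebraicClosure F) V) hpq hn
    (B.toMonoidHom.comp ρ) Q hQ x hxQ ?_ ?_
  · have hpow : ∀ k : ℕ, ((B.toMonoidHom.comp ρ) x - 1) ^ k = B ((ρ x - 1) ^ k) := by
      intro k
      rw [map_pow, map_sub, map_one]
      rfl
    rcases h with h | ⟨n₀, m, h1, h2, h3, h4, h5, h6, h7⟩
    · left
      intro h0
      apply h
      rw [hpow, h0, map_zero]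
    · refine Or.inr ⟨n₀, m, h1, h2, h3, h4, h5, h6, ?_⟩
      intro h0
      apply h7
      rw [hpow, h0, map_zero]
  · change (B (ρ x)) ^ _ = 1
    rw [← map_pow, hx, map_one]
  · obtain ⟨g, hg, hne⟩ := hy
    exact ⟨g, hg, fun h => hne (hinj h)⟩

end Cfsg.Agent.Lib.HHMain
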