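import Mathlib
import Cfsg.Prelude.Def_Transfer
import Cfsg.Prelude.Def_Local
import Cfsg.Prelude.Def_PLocal
import Cfsg.Agent.Lib.HHMain2
import Cfsg.Agent.Lib.PSolvDual
import Cfsg.Agent.Lib.CoprimeAction

/-! Theorem B of Hall and Higman for `p`-solvable groups (helper63). -/

set_option autoImplicit false
open scoped commutatorElement Pointwise

namespace Cfsg.Agent.Lib.HallHigman

open Module Cfsg.Agent.Lib.HHMain Cfsg

/-- a `p`-element moving a `q`-subgroup of `O_{p'}`. -/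
theorem exists_moved {p : ℕ} [hp : Fact p.Prime] {G : Type*} [Group G] [Finite G] (hsol : IsPSolvable p G)
    (hOp : pCore p G = ⊥) (x y : G) (k : ℕ) (hx : x ^ (p ^ k) = 1) (hyx : y ∈ Subgroup.zpowers x) (hy : y ≠ 1) :
    ∃ (q : ℕ) (Q : Subgroup G), q.Prime ∧ q ≠ p ∧ IsPGroup q Q ∧ x ∈ Subgroup.normalizer (Q : Set G) ∧
      ∃ g ∈ Q, y * g ≠ g * y := by
  classical
  by_contra hcon
  push Not at hcon
  set N := pPrimeCore p G with hN
  have hNn : N.Normal := inferInstance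
  have hNcop : (Nat.card N).Coprime p := Cfsg.Agent.Lib.H32Cores.pPrimeCore_coprime p
  set A := Subgroup.zpowers x with hA
  have hcard : Nat.card A ∣ p ^ k := by
    rw [hA, Nat.card_zpowers]; exact orderOf_dvd_of_pow_eq_one hx
  have hcop : (Nat.card A).Coprime (Nat.card N) :=
    Nat.Coprime.coprime_dvd_left hcard (Nat.Coprime.pow_left k hNcop.symm)
  have hAN : A ≤ Subgroup.normalizer (N : Set G) := by rw [Subgroup.normalizer_eq_top]; exact le_top
  have hAs : Group.IsSolvable A := inferInstance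
  have hle : N ≤ Subgroup.centralizer ({y} : Set G) := by
    have h1 : (N ⊓ Subgroup.centralizer ({y} : Set G)).relIndex N = 1 := by
      by_contra hne
      obtain ⟨s, hsp, hd⟩ := Nat.exists_prime_and_dvd hne
      have : Fact s.Prime := ⟨hsp⟩
      obtain ⟨S, hSN, hSp, hSi, hBS⟩ := Cfsg.Agent.Lib.CoprimeAction.exists_invariant_sylow hAN hcop (Or.inl hAs) s
      have hsp' : s ≠ p := by
        rintro rfl
        have h2 : s ∣ Nat.card N := hd.trans (Subgroup.relIndex_dvd_card _ _)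
        exact (Nat.Prime.coprime_iff_not_dvd hp.out).mp hNcop.symm h2
      have h3 : S ≤ N ⊓ Subgroup.centralizer ({y} : Set G) := by
        apply le_inf hSN
        intro g hg
        rw [Subgroup.mem_centralizer_singleton_iff]
        exact (hcon s S hsp hsp' hSp (hBS (Subgroup.mem_zpowers x)) g hg).symm
      exact hSi (hd.trans (Subgroup.relIndex_dvd_of_le_left N h3))
    exact (Subgroup.relIndex_eq_one.mp h1).trans inf_le_right
  have hyN : y ∈ N := by
    apply Cfsg.Agent.Lib.PSolvDual.centralizer_pPrimeCore_le hsol hOp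
    rw [Subgroup.mem_centralizer_iff]
    intro g hg
    have := hle hg
    rw [Subgroup.mem_centralizer_singleton_iff] at this
    exact this
  apply hy
  have h2 : orderOf y ∣ Nat.gcd (p ^ k) (Nat.card N) := by
    apply Nat.dvd_gcd
    · have h3 : orderOf y ∣ Nat.card A := by
        rw [← Nat.card_zpowers]
        exact Subgroup.card_dvd_of_le (by rw [Subgroup.zpowers_le]; exact hyx)
      exact h3.trans hcard
    · have h3 := orderOf_dvd_natCard (⟨y, hyN⟩ : N)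
      rwa [Subgroup.orderOf_mk] at h3
  rw [(Nat.Coprime.pow_left k hNcop.symm).gcd_eq_one, Nat.dvd_one, orderOf_eq_one_iff] at h2
  exact h2

/-- Theorem B of Hall and Higman. -/
theorem theoremB {F : Type*} [Field F] {p : ℕ} [hp : Fact p.Prime] [CharP F p] {V : Type*} [AddCommGroup V]
    [Module F V] [FiniteDimensional F V] {G : Type*} [Group G] [Finite G] (hsol : IsPSolvable p G)
    (hOp : pCore p G = ⊥) (ρ : G →* Module.End F V) (hρ : Function.Injective ρ) (x : G) (n : ℕ) (hn : 1 ≤ n)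
    (hord : orderOf x = p ^ n) :
    (ρ x - 1) ^ (p ^ n - 1) ≠ 0 ∨ ∃ n₀ q m : ℕ, 1 ≤ n₀ ∧ n₀ ≤ n ∧ q.Prime ∧ q ≠ p ∧ 1 ≤ m ∧ p ^ n₀ - 1 = q ^ m ∧
      (∃ Q : Subgroup G, IsPGroup q Q ∧ ∃ a ∈ Q, ∃ b ∈ Q, a * b ≠ b * a) ∧
      (ρ x - 1) ^ (p ^ (n - n₀) * (p ^ n₀ - 1) - 1) ≠ 0 := by
  have hx : x ^ (p ^ n) = 1 := by rw [← hord, pow_orderOf_eq_one]
  have hy : x ^ (p ^ (n - 1)) ≠ 1 := by
    intro h
    have h1 := orderOf_dvd_of_pow_eq_one h
    rw [hord, Nat.pow_dvd_pow_iff_le_right hp.out.one_lt] at h1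
    omega
  obtain ⟨q, Q, hq, hqp, hQ, hxQ, g, hg, hne⟩ := exists_moved hsol hOp x _ n hx
    (Subgroup.pow_mem _ (Subgroup.mem_zpowers x) (p ^ (n - 1))) hy
  have : Fact q.Prime := ⟨hq⟩
  rcases main_field (F := F) (Ne.symm hqp) hn ρ Q hQ x hxQ (by rw [← map_pow, hx, map_one])
    ⟨g, hg, fun h => hne (hρ h)⟩ with h | ⟨n₀, m, h1, h2, h3, h4, h5, _, h7⟩
  · exact Or.inl h
  · exact Or.inr ⟨n₀, q, m, h1, h2, hq, hqp, h3, h4, ⟨Q, hQ, h5⟩, h7⟩

/-- non-abelian `q`-subgroups force non-abelian Sylow `q`-subgroups. -/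
theorem sylow_not_comm {G : Type*} [Group G] [Finite G] {q : ℕ} [Fact q.Prime] {Q : Subgroup G} (hQ : IsPGroup q Q)
    (h : ∃ a ∈ Q, ∃ b ∈ Q, a * b ≠ b * a) (S : Sylow q G) : ¬ IsMulCommutative (S : Subgroup G) := by
  intro hS
  obtain ⟨T, hT⟩ := hQ.exists_le_sylow
  obtain ⟨g, hg⟩ := MulAction.exists_smul_eq G S T
  obtain ⟨a, ha, b, hb, hne⟩ := h
  have hmem : ∀ t ∈ T, g⁻¹ * t * g ∈ (S : Subgroup G) := by
    intro t ht
    rw [← hg] at ht
    have h1 : t ∈ (g • S : Sylow q G) := ht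
    rw [Sylow.smul_def] at h1
    have h2 : t ∈ MulAut.conj g • (S : Subgroup G) := h1
    rw [Subgroup.mem_pointwise_smul_iff_inv_smul_mem] at h2
    have h3 : (MulAut.conj g)⁻¹ • t = g⁻¹ * t * g := by
      rw [← map_inv, MulAut.smul_def, MulAut.conj_apply, inv_inv]
    rwa [h3] at h2
  have h1 := hS.is_comm.comm ⟨_, hmem a (hT ha)⟩ ⟨_, hmem b (hT hb)⟩
  have h2 : (g⁻¹ * a * g) * (g⁻¹ * b * g) = (g⁻¹ * b * g) * (g⁻¹ * a * g) := congrArg Subtype.val h1
  apply hne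
  calc a * b = g * ((g⁻¹ * a * g) * (g⁻¹ * b * g)) * g⁻¹ := by group
    _ = g * ((g⁻¹ * b * g) * (g⁻¹ * a * g)) * g⁻¹ := by rw [h2]
    _ = b * a := by group

end Cfsg.Agent.Lib.HallHigman
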