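import Mathlib
import Cfsg.Agent.Lib.FratRep
import Cfsg.Agent.Lib.HallHigman
import Cfsg.Agent.Lib.PLength

/-! `p`-length and exponent of the Sylow `p`-subgroups (helper63). -/

set_option autoImplicit false
open scoped commutatorElement

namespace Cfsg.Agent.Lib.HHExp

open Module Cfsg.Agent.Lib.FratRep Cfsg.Agent.Lib.HallHigman Cfsg.Agent.Lib.PLength Cfsg.Agent.Lib.HHLin Cfsg

universe u

/-- lifting `p`-elements. -/
theorem lift_pelement {p : ℕ} [hp : Fact p.Prime] {G : Type u} [Group G] [Finite G] (N : Subgroup G) [N.Normal]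
    (x : G ⧸ N) (k : ℕ) (hx : x ^ (p ^ k) = 1) : ∃ y : G, QuotientGroup.mk' N y = x ∧ ∃ a, y ^ (p ^ a) = 1 := by
  obtain ⟨g, rfl⟩ := QuotientGroup.mk'_surjective N x
  obtain ⟨a, m, hm, hak⟩ := Nat.exists_eq_pow_mul_and_not_dvd (n := orderOf g) (orderOf_pos g).ne' p hp.out.ne_one
  have hcop : Nat.Coprime m (p ^ k) := Nat.Coprime.pow_right k ((Nat.Prime.coprime_iff_not_dvd hp.out).mpr hm).symm
  have hb := Nat.gcd_eq_gcd_ab m (p ^ k)
  rw [hcop.gcd_eq_one] at hb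
  set A := Nat.gcdA m (p ^ k)
  set B := Nat.gcdB m (p ^ k)
  refine ⟨(g ^ m) ^ A, ?_, a, ?_⟩
  · rw [map_zpow, map_pow]
    set x := QuotientGroup.mk' N g
    calc (x ^ m) ^ A = (x ^ m) ^ A * (x ^ (p ^ k)) ^ B := by rw [hx, one_zpow, mul_one]
      _ = x ^ ((m : ℤ) * A + ((p ^ k : ℕ) : ℤ) * B) := by
          rw [zpow_add, zpow_mul, zpow_mul, zpow_natCast, zpow_natCast]
      _ = x := by rw [← hb]; simp
  · rw [← zpow_natCast, ← zpow_mul, mul_comm A, zpow_mul, zpow_natCast, ← pow_mul]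
    have : m * p ^ a = orderOf g := by rw [hak]; ring
    rw [this, pow_orderOf_eq_one, one_zpow]

/-- commutativity of the Sylow subgroups passes to quotients. -/
theorem sylow_comm_quot {q : ℕ} [hq : Fact q.Prime] {G : Type u} [Group G] [Finite G] (N : Subgroup G) [N.Normal]
    (h : ∀ S : Sylow q G, IsMulCommutative (S : Subgroup G)) (T : Sylow q (G ⧸ N)) :
    IsMulCommutative (T : Subgroup (G ⧸ N)) := by
  obtain ⟨S, hS⟩ := Sylow.mapSurjective_surjective (QuotientGroup.mk'_surjective N) q T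
  rw [← hS, Sylow.coe_mapSurjective]
  have h1 := h S
  refine ⟨⟨?_⟩⟩
  rintro ⟨_, a, ha, rfl⟩ ⟨_, b, hb, rfl⟩
  apply Subtype.ext
  change QuotientGroup.mk' N a * QuotientGroup.mk' N b = QuotientGroup.mk' N b * QuotientGroup.mk' N a
  have h2 : a * b = b * a := congrArg Subtype.val (h1.is_comm.comm ⟨a, ha⟩ ⟨b, hb⟩)
  rw [← map_mul, ← map_mul]
  exact congrArg _ h2

/-- `ux` is a `p`-element if `x` is one and `u ∈ O_p(G)`. -/
theorem pelement_mul {p : ℕ} [hp : Fact p.Prime] {G : Type u} [Group G] [Finite G] {N : Subgroup G} [hNn : N.Normal]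
    (hN : IsPGroup p N) {u x : G} (hu : u ∈ N) {k : ℕ} (hx : x ^ (p ^ k) = 1) : ∃ a, (u * x) ^ (p ^ a) = 1 := by
  have h1 : QuotientGroup.mk' N (u * x) = QuotientGroup.mk' N x := by
    rw [map_mul]
    have : QuotientGroup.mk' N u = 1 := (QuotientGroup.eq_one_iff u).mpr hu
    rw [this, one_mul]
  have h2 : (u * x) ^ (p ^ k) ∈ N := by
    have h3 : QuotientGroup.mk' N ((u * x) ^ (p ^ k)) = 1 := by
      rw [map_pow, h1, ← map_pow, hx, map_one]
    exact (QuotientGroup.eq_one_iff _).mp h3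
  obtain ⟨b, hb⟩ := hN ⟨_, h2⟩
  refine ⟨k + b, ?_⟩
  rw [pow_add, pow_mul]
  exact congrArg Subtype.val hb

/-- The elements of a `p`-solvable group with `O_{p'} = 1` act on `O_p/Φ(O_p)` with `(x-1)^(p^e-1) = 0` if the
exponent of the Sylow `p`-subgroups divides `p^e`. -/
theorem nil_of_exponent {p : ℕ} [hp : Fact p.Prime] {G : Type u} [Group G] [Finite G] {e : ℕ}
    (hexp : ∀ x : G, (∃ k, x ^ (p ^ k) = 1) → x ^ (p ^ e) = 1) {V : Type u} [AddCommGroup V] [Module (ZMod p) V]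
    (D : Data p (pCore p G) V) (x : G) (hx : ∃ k, x ^ (p ^ k) = 1) : (D.ρ x - 1) ^ (p ^ e - 1) = 0 := by
  rw [← sum_pow_eq (K := ZMod p) (p := p)]
  apply D.sum_eq_zero
  intro a ha
  obtain ⟨k, hk⟩ := hx
  exact hexp _ (pelement_mul (Cfsg.Agent.Lib.H32Cores.pCore_isPGroup p) ha hk)

theorem exp_quot {p : ℕ} [hp : Fact p.Prime] {G : Type u} [Group G] [Finite G] {e : ℕ} (N : Subgroup G) [N.Normal]
    (hexp : ∀ x : G, (∃ k, x ^ (p ^ k) = 1) → x ^ (p ^ e) = 1) (x : G ⧸ N) (hx : ∃ k, x ^ (p ^ k) = 1) :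
    x ^ (p ^ e) = 1 := by
  obtain ⟨k, hk⟩ := hx
  obtain ⟨y, hy, ha⟩ := lift_pelement N x k hk
  rw [← hy, ← map_pow, hexp y ha, map_one]

/-- One step: in the non-exceptional case the exponent drops. -/
theorem exp_drop {p : ℕ} [hp : Fact p.Prime] {G : Type u} [Group G] [Finite G] (hsol : IsPSolvable p G)
    (hO : pPrimeCore p G = ⊥) {e : ℕ}
    (hq : ∀ q n₀ m : ℕ, ∀ [Fact q.Prime], q ≠ p → 1 ≤ n₀ → 1 ≤ m → p ^ n₀ - 1 = q ^ m →
      ∀ S : Sylow q (G ⧸ pCore p G), IsMulCommutative (S : Subgroup (G ⧸ pCore p G)))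
    (hexp : ∀ x : G, (∃ k, x ^ (p ^ k) = 1) → x ^ (p ^ (e + 1)) = 1) (x : G ⧸ pCore p G)
    (hx : ∃ k, x ^ (p ^ k) = 1) : x ^ (p ^ e) = 1 := by
  obtain ⟨V, i1, i2, i3, ⟨D⟩⟩ := exists_data (p := p) (pCore p G) inferInstance (Cfsg.Agent.Lib.H32Cores.pCore_isPGroup p)
  obtain ⟨σ, hσ, hσρ⟩ := D.exists_quot hsol hO
  by_contra hne
  have hord : orderOf x = p ^ (e + 1) := by
    apply orderOf_eq_prime_pow hne
    exact exp_quot _ hexp x hx
  have hfd : FiniteDimensional (ZMod p) V := Module.Finite.of_finite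
  have hB := theoremB (F := ZMod p) (V := V) (Cfsg.Agent.Lib.H32PSolv.isPSolvable_quotient hsol (pCore p G))
    (Cfsg.Agent.Lib.Cores.pCore_quotient_pCore p G) σ hσ x (e + 1) (by omega) hord
  rcases hB with h | ⟨n₀, q, m, h1, h2, h3, h4, h5, h6, ⟨Q, hQ, h7⟩, h8⟩
  · apply h
    obtain ⟨k, hk⟩ := hx
    obtain ⟨y, hy, ha⟩ := lift_pelement (pCore p G) x k hk
    rw [← hy, hσρ]
    exact nil_of_exponent hexp D y ha
  · have : Fact q.Prime := ⟨h3⟩
    obtain ⟨S⟩ : Nonempty (Sylow q (G ⧸ pCore p G)) := inferInstance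
    exact sylow_not_comm hQ h7 S (hq q n₀ m h4 h1 h5 h6 S)

/-- `p`-length at most the exponent, in the non-exceptional case. -/
theorem pLength_le_exponent {p : ℕ} [hp : Fact p.Prime] : ∀ (e : ℕ) {G : Type u} [Group G] [Finite G],
    IsPSolvable p G →
    (∀ q n₀ m : ℕ, ∀ [Fact q.Prime], q ≠ p → 1 ≤ n₀ → 1 ≤ m → p ^ n₀ - 1 = q ^ m →
      ∀ S : Sylow q G, IsMulCommutative (S : Subgroup G)) →
    (∀ x : G, (∃ k, x ^ (p ^ k) = 1) → x ^ (p ^ e) = 1) → PLengthLE p e G := by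
  intro e
  induction e with
  | zero =>
    intro G _ _ _ _ hexp
    rw [pLengthLE_zero_iff]
    rw [Nat.coprime_comm, Nat.Prime.coprime_iff_not_dvd hp.out]
    intro hdvd
    obtain ⟨x, hx⟩ := exists_prime_orderOf_dvd_card' p hdvd
    have h1 := hexp x ⟨1, by rw [pow_one, ← hx, pow_orderOf_eq_one]⟩
    rw [pow_zero, pow_one] at h1
    rw [h1, orderOf_one] at hx
    exact hp.out.one_lt.ne hx
  | succ e ih =>
    intro G _ _ hsol hq hexp
    apply pLengthLE_of_coprime (pPrimeCore p G) (Cfsg.Agent.Lib.H32Cores.pPrimeCore_coprime p)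
    apply pLengthLE_succ_of_isPGroup (pCore p (G ⧸ pPrimeCore p G)) (Cfsg.Agent.Lib.H32Cores.pCore_isPGroup p)
    have hsol1 := Cfsg.Agent.Lib.H32PSolv.isPSolvable_quotient hsol (pPrimeCore p G)
    have hsol2 := Cfsg.Agent.Lib.H32PSolv.isPSolvable_quotient hsol1 (pCore p (G ⧸ pPrimeCore p G))
    have hq2 : ∀ q n₀ m : ℕ, ∀ [Fact q.Prime], q ≠ p → 1 ≤ n₀ → 1 ≤ m → p ^ n₀ - 1 = q ^ m →
        ∀ S : Sylow q ((G ⧸ pPrimeCore p G) ⧸ pCore p (G ⧸ pPrimeCore p G)),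
          IsMulCommutative (S : Subgroup ((G ⧸ pPrimeCore p G) ⧸ pCore p (G ⧸ pPrimeCore p G))) :=
      fun q n₀ m _ h1 h2 h3 h4 => sylow_comm_quot _ (sylow_comm_quot _ (hq q n₀ m h1 h2 h3 h4))
    apply ih hsol2 hq2
    exact exp_drop hsol1 (Cfsg.Agent.Lib.Cores.pPrimeCore_quotient_pPrimeCore p G) hq2 (exp_quot _ hexp)

/-- exponents of Sylow subgroups and `p`-elements. -/
theorem pelement_of_sylow {p : ℕ} [hp : Fact p.Prime] {G : Type u} [Group G] [Finite G] {e : ℕ}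
    (hexp : ∀ (P : Sylow p G), ∀ x ∈ (P : Subgroup G), x ^ p ^ e = 1) (x : G) (hx : ∃ k, x ^ (p ^ k) = 1) :
    x ^ (p ^ e) = 1 := by
  obtain ⟨k, hk⟩ := hx
  have h1 : IsPGroup p (Subgroup.zpowers x) := by
    rw [IsPGroup.iff_card]
    obtain ⟨j, _, hj⟩ := (Nat.dvd_prime_pow hp.out).mp (orderOf_dvd_of_pow_eq_one hk)
    exact ⟨j, by rw [Nat.card_zpowers, hj]⟩
  obtain ⟨P, hP⟩ := h1.exists_le_sylow
  exact hexp P x (hP (Subgroup.mem_zpowers x))

end Cfsg.Agent.Lib.HHExp
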