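import Cfsg.Agent.Lib.SympFix
import Cfsg.Agent.Lib.PCoreTools

/-!
Sections of exponent `q` as representations over `ZMod q` (helper59).
-/

set_option autoImplicit false

namespace Cfsg.Agent.Lib.SecRep59

open Module Subgroup Cfsg.Agent.Lib.WielandtFix
open scoped commutatorElement

universe u v w

theorem exists_module {C : Type u} [CommGroup C] [Finite C] {q : ℕ} (hpow : ∀ x : C, x ^ q = 1)
    {X : Type v} [Group X] (f : X → C →* C) (hf1 : ∀ x, f 1 x = x)
    (hfm : ∀ a b x, f (a * b) x = f a (f b x)) :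
    ∃ (M : Type u) (_ : AddCommGroup M) (_ : Module (ZMod q) M) (_ : Finite M)
      (ρ : Representation (ZMod q) X M) (π : C → M), Function.Surjective π ∧
      (∀ x y, π (x * y) = π x + π y) ∧ (∀ x, π x = 0 ↔ x = 1) ∧
      ∀ (a : X) (x : C), ρ a (π x) = π (f a x) := by
  have inst : Module (ZMod q) (Additive C) := AddCommGroup.zmodModule (n := q) (by
    intro x
    change Additive.ofMul ((Additive.toMul x) ^ q) = 0
    rw [hpow]; rfl)
  let g : X → Module.End (ZMod q) (Additive C) := fun a =>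
    AddMonoidHom.toZModLinearMap q (MonoidHom.toAdditive (f a))
  have hg : ∀ a x, g a x = Additive.ofMul (f a (Additive.toMul x)) := fun a x => rfl
  have hg1 : g 1 = 1 := by
    refine LinearMap.ext fun x => ?_
    rw [hg, hf1]; rfl
  have hgm : ∀ a b, g (a * b) = g a * g b := by
    intro a b
    refine LinearMap.ext fun x => ?_
    rw [hg, hfm, Module.End.mul_apply, hg, hg]; rfl
  refine ⟨Additive C, inferInstance, inst, inferInstanceAs (Finite C),
    MonoidHom.mk ⟨g, hg1⟩ hgm, fun x => Additive.ofMul x, ?_, ?_, ?_, ?_⟩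
  · intro x
    exact ⟨Additive.toMul x, rfl⟩
  · intro x y
    rfl
  · intro x
    rfl
  · intro a x
    rfl

theorem exists_section {Γ : Type u} [Group Γ] [Finite Γ] {q : ℕ} [hq : Fact q.Prime]
    (Q R X : Subgroup Γ) (hcomm : ∀ x ∈ Q, ∀ y ∈ Q, ⁅x, y⁆ ∈ R)
    (hpow : ∀ x ∈ Q, x ^ q ∈ R) (hXQ : X ≤ normalizer (Q : Set Γ))
    (hXR : X ≤ normalizer (R : Set Γ)) (hQR : Q ≤ normalizer (R : Set Γ)) :
    ∃ (M : Type u) (_ : AddCommGroup M) (_ : Module (ZMod q) M) (_ : Finite M)
      (ρ : Representation (ZMod q) X M) (π : Q → M), Function.Surjective π ∧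
      (∀ x y, π (x * y) = π x + π y) ∧ (∀ x, π x = 0 ↔ (x : Γ) ∈ R) ∧
      ∀ (a : X) (x y : Q), (y : Γ) = a * x * (a : Γ)⁻¹ → ρ a (π x) = π y := by
  classical
  have hn : (R.subgroupOf Q).Normal := by
    constructor
    intro x hx g
    have h1 : (x : Γ) ∈ R := hx
    exact (mem_normalizer_iff.1 (hQR g.2) x).1 h1
  let C : CommGroup (Q ⧸ R.subgroupOf Q) :=
    { (inferInstance : Group (Q ⧸ R.subgroupOf Q)) with
      mul_comm := by
        intro a b
        induction a using QuotientGroup.induction_on with | H x => ?_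
        induction b using QuotientGroup.induction_on with | H y => ?_
        rw [← QuotientGroup.mk_mul, ← QuotientGroup.mk_mul, QuotientGroup.eq]
        have h1 := hcomm (y : Γ)⁻¹ (inv_mem y.2) (x : Γ)⁻¹ (inv_mem x.2)
        change ((x : Γ) * y)⁻¹ * ((y : Γ) * x) ∈ R
        have h2 : ((x : Γ) * y)⁻¹ * ((y : Γ) * x) = ⁅(y : Γ)⁻¹, (x : Γ)⁻¹⁆ := by
          rw [commutatorElement_def]; group
        rw [h2]
        exact h1 }
  let f : X → (Q ⧸ R.subgroupOf Q) →* (Q ⧸ R.subgroupOf Q) := fun a =>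
    QuotientGroup.map _ _ (PCoreTools.conjAut (a : Γ) (hXQ a.2)).toMonoidHom (by
      intro x hx
      have h1 : (x : Γ) ∈ R := hx
      exact (mem_normalizer_iff.1 (hXR a.2) x).1 h1)
  have hf : ∀ (a : X) (x : Q), f a (x : Q ⧸ R.subgroupOf Q) =
      ((PCoreTools.conjAut (a : Γ) (hXQ a.2) x : Q) : Q ⧸ R.subgroupOf Q) := fun a x => rfl
  obtain ⟨M, i1, i2, i3, ρ, π, h1, h2, h3, h4⟩ := exists_module (C := Q ⧸ R.subgroupOf Q) (q := q)
    (by
      intro x
      induction x using QuotientGroup.induction_on with | H x => ?_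
      rw [← QuotientGroup.mk_pow, QuotientGroup.eq_one_iff]
      exact hpow x x.2) f (by
      intro x
      induction x using QuotientGroup.induction_on with | H x => ?_
      rw [hf]
      congr 1
      apply Subtype.ext
      rw [PCoreTools.conjAut_coe]; simp) (by
      intro a b x
      induction x using QuotientGroup.induction_on with | H x => ?_
      rw [hf, hf, hf]
      congr 1
      apply Subtype.ext
      rw [PCoreTools.conjAut_coe, PCoreTools.conjAut_coe, PCoreTools.conjAut_coe]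
      push_cast
      group)
  refine ⟨M, i1, i2, i3, ρ, fun x => π (x : Q ⧸ R.subgroupOf Q), ?_, ?_, ?_, ?_⟩
  · intro m
    obtain ⟨x, rfl⟩ := h1 m
    obtain ⟨y, rfl⟩ := QuotientGroup.mk_surjective x
    exact ⟨y, rfl⟩
  · intro x y
    exact h2 (x : Q ⧸ R.subgroupOf Q) (y : Q ⧸ R.subgroupOf Q)
  · intro x
    rw [h3]
    exact QuotientGroup.eq_one_iff (N := R.subgroupOf Q) x
  · intro a x y hy
    simp only
    rw [h4, hf]
    congr 2
    exact Subtype.ext hy.symm

end Cfsg.Agent.Lib.SecRep59
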