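import Mathlib

/-!
Ring-theoretic consequences of fixed-point-free actions: the relation `∑ a, s a = 0` (helper59).
-/

set_option autoImplicit false

namespace Cfsg.Agent.Lib.FpfRing

open Finset

/-- Dedekind/Artin elimination. -/
theorem dedekind {T M Q A : Type*} [CommRing T] [AddCommGroup M] [Module T M] [Monoid Q]
    [Fintype A] [DecidableEq A] (χ : A → Q →* T) (r : A → M)
    (h : ∀ x, ∑ a, χ a x • r a = 0) (a₀ : A) (y : A → Q) :
    (∏ a ∈ univ.erase a₀, (χ a₀ (y a) - χ a (y a))) • r a₀ = 0 := by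
  have key : ∀ S : Finset A, ∀ x : Q,
      ∑ a, ((∏ b ∈ S, (χ a (y b) - χ b (y b))) * χ a x) • r a = 0 := by
    intro S
    induction S using Finset.induction_on with
    | empty => intro x; simpa using h x
    | insert b S hb ih =>
      intro x
      have h1 := ih (y b * x)
      have h2 := congrArg (fun m => χ b (y b) • m) (ih x)
      simp only [smul_zero, Finset.smul_sum] at h2
      have h3 : ∑ a, (((∏ b ∈ S, (χ a (y b) - χ b (y b))) * χ a (y b * x)) • r a
          - χ b (y b) • ((∏ b ∈ S, (χ a (y b) - χ b (y b))) * χ a x) • r a) = 0 := by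
        rw [Finset.sum_sub_distrib, h1, h2, sub_zero]
      rw [← h3]
      refine Finset.sum_congr rfl fun a _ => ?_
      rw [Finset.prod_insert hb, map_mul, smul_smul, ← sub_smul]
      congr 1
      ring
  have h1 := key (univ.erase a₀) 1
  rw [Finset.sum_eq_single a₀] at h1
  · simpa using h1
  · intro a _ ha
    rw [Finset.prod_eq_zero (i := a) (by simp [ha]) (by simp)]
    simp
  · simp

/-- in characteristic `p`, a unipotent element of order prime to `p` is trivial -/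
theorem eq_one_of_unipotent {R : Type*} [Ring R] {p : ℕ} (hp : p.Prime) (hR : (p : R) = 0) {b : R}
    {n m : ℕ} (hb : (b - 1) ^ n = 0) (hm : b ^ m = 1) (hpm : ¬ p ∣ m) : b = 1 := by
  have h1 : b ^ (p ^ n) = 1 := by
    have hc : Commute (b - 1) (1 : R) := Commute.one_right _
    have h2 := hc.add_pow_prime_pow_eq hp n
    have h3 : (b - 1) ^ (p ^ n) = 0 := by
      have : n ≤ p ^ n := (Nat.lt_pow_self hp.one_lt).le
      obtain ⟨k, hk⟩ := Nat.exists_eq_add_of_le this
      rw [hk, pow_add, hb, zero_mul]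
    rw [hR, h3] at h2
    simpa using h2
  have h4 := pow_gcd_eq_one.mpr ⟨h1, hm⟩
  have h5 : (p ^ n).gcd m = 1 := by
    apply Nat.Coprime.pow_left
    exact (Nat.Prime.coprime_iff_not_dvd hp).2 hpm
  rwa [h5, pow_one] at h4

universe u v

variable {K : Type v} {R : Type u} [Group K] [Finite K] [Ring R]

-- Dedekind elimination for an abelian subgroup of `K` represented in `R`. -/
omit [Finite K] in
theorem exists_comm_subring {A : Type*} [Fintype A] [DecidableEq A] (h : K →* R) (Q : Subgroup K)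
    (hQ : ∀ x ∈ Q, ∀ y ∈ Q, x * y = y * x) (σ : A → K →* K) (hσ : ∀ a, ∀ x ∈ Q, σ a x ∈ Q)
    (s : A → R) (hE : ∀ x ∈ Q, ∑ a, h (σ a x) * s a = 0) (a₀ : A) (y : A → K)
    (hy : ∀ a, y a ∈ Q) :
    ∃ (T : Type u) (_ : CommRing T) (ι : T →+* R) (t : A → T),
      (∀ a, ι (t a) = h (σ a₀ (y a)) - h (σ a (y a))) ∧
      ι (∏ a ∈ univ.erase a₀, t a) * s a₀ = 0 := by
  classical
  let S : Subring R := Subring.closure ((fun x => h x) '' (Q : Set K))
  have hcomm : IsMulCommutative ↥S := by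
    apply Subring.isMulCommutative_closure
    rintro _ ⟨x, hx, rfl⟩ _ ⟨y, hy, rfl⟩
    change h x * h y = h y * h x
    rw [← map_mul, hQ x hx y hy, map_mul]
  let _ : CommRing ↥S := { (inferInstance : Ring ↥S) with mul_comm := hcomm.is_comm.comm }
  let χ : A → Q →* S := fun a =>
    { toFun := fun x => ⟨h (σ a x), Subring.subset_closure ⟨_, hσ a x x.2, rfl⟩⟩
      map_one' := by
        ext; simp
      map_mul' := by
        intro x y
        ext; simp }
  have h1 := dedekind (T := S) (M := R) χ s (by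
    intro x
    exact hE x x.2) a₀ (fun a => ⟨y a, hy a⟩)
  exact ⟨S, inferInstance, S.subtype,
    fun a => (χ a₀ ⟨y a, hy a⟩ - χ a ⟨y a, hy a⟩), fun a => rfl, h1⟩


theorem exists_div (φ : K →* K) (Q : Subgroup K) (hQ : ∀ x ∈ Q, φ x ∈ Q)
    (hf : ∀ x ∈ Q, φ x = x → x = 1) : ∀ b ∈ Q, ∃ y ∈ Q, (φ y)⁻¹ * y = b := by
  let f : Q → Q := fun y => ⟨(φ y)⁻¹ * y, Q.mul_mem (Q.inv_mem (hQ y y.2)) y.2⟩
  have hinj : Function.Injective f := by
    intro x y hxy
    have h1 : (φ x)⁻¹ * (x : K) = (φ y)⁻¹ * y := congrArg (Subtype.val : Q → K) hxy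
    have h2 : φ ((x : K) * (y : K)⁻¹) = (x : K) * (y : K)⁻¹ := by
      rw [map_mul, map_inv]
      calc φ x * (φ y)⁻¹ = φ x * ((φ y)⁻¹ * y) * (y : K)⁻¹ := by group
        _ = φ x * ((φ x)⁻¹ * x) * (y : K)⁻¹ := by rw [h1]
        _ = _ := by group
    have h3 := hf _ (Q.mul_mem x.2 (Q.inv_mem y.2)) h2
    exact Subtype.ext (mul_inv_eq_one.1 h3)
  have hsurj : Function.Surjective f := Finite.surjective_of_injective hinj
  intro b hb
  obtain ⟨y, hy⟩ := hsurj ⟨b, hb⟩
  exact ⟨y, y.2, congrArg (Subtype.val : Q → K) hy⟩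

/-- the abelian case -/
theorem order_four_abelian {p : ℕ} (hp : p.Prime) (hR : (p : R) = 0) (σ : MulAut K)
    (hσ : ∀ x, σ (σ (σ (σ x))) = x) (hfpf : ∀ g, σ g = g → g = 1) (s : R)
    (hs : 1 + s + s ^ 2 + s ^ 3 = 0) (h : K →* R) (hsh : ∀ x, s * h x = h (σ x) * s)
    (Q : Subgroup K) (hQσ : ∀ x ∈ Q, σ x ∈ Q) (hQ : ∀ x ∈ Q, ∀ y ∈ Q, x * y = y * x)
    (hQp : ¬ p ∣ Nat.card Q) :
    (∀ z ∈ Q, h (σ (σ z)) = h z) ∧ ∀ z ∈ Q, (h z - 1) * (1 + s ^ 2) = 0 := by
  -- the basic relation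
  have hs2 : ∀ x, s ^ 2 * h x = h (σ (σ x)) * s ^ 2 := by
    intro x
    rw [pow_two, mul_assoc, hsh, ← mul_assoc, hsh, mul_assoc]
  have hs3 : ∀ x, s ^ 3 * h x = h (σ (σ (σ x))) * s ^ 3 := by
    intro x
    rw [pow_succ, mul_assoc, hsh, ← mul_assoc, hs2, mul_assoc]
  have hE : ∀ x, h x + h (σ x) * s + h (σ (σ x)) * s ^ 2 + h (σ (σ (σ x))) * s ^ 3 = 0 := by
    intro x
    have := congrArg (fun r => r * h x) hs
    simp only [add_mul, one_mul, zero_mul, hs2, hs3, hsh] at this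
    exact this
  let τ : Fin 4 → K →* K := ![MonoidHom.id K, σ.toMonoidHom,
    σ.toMonoidHom.comp σ.toMonoidHom, σ.toMonoidHom.comp (σ.toMonoidHom.comp σ.toMonoidHom)]
  have hτ : ∀ a, ∀ x ∈ Q, τ a x ∈ Q := by
    intro a x hx
    fin_cases a
    · exact hx
    · exact hQσ x hx
    · exact hQσ _ (hQσ x hx)
    · exact hQσ _ (hQσ _ (hQσ x hx))
  have hfpf3 : ∀ x, σ (σ (σ x)) = x → x = 1 := by
    intro x hx
    apply hfpf
    conv_lhs => rw [← hx]
    exact hσ x
  have key : ∀ z ∈ Q, h (σ (σ z)) = h z := by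
    intro z hz
    set b := (σ (σ z))⁻¹ * z with hb
    have hbQ : b ∈ Q := Q.mul_mem (Q.inv_mem (hQσ _ (hQσ z hz))) hz
    obtain ⟨y₁, hy₁, hy₁'⟩ := exists_div σ.toMonoidHom Q hQσ (fun x _ hx => hfpf x hx) b hbQ
    obtain ⟨y₃, hy₃, hy₃'⟩ := exists_div (τ 3) Q (hτ 3) (fun x _ hx => hfpf3 x hx) b hbQ
    obtain ⟨T, _, ι, t, ht, htp⟩ := exists_comm_subring h Q hQ τ hτ (fun a => s ^ (a : ℕ)) (by
      intro x _
      simpa [Fin.sum_univ_four, τ] using hE x) 0 ![1, y₁, z, y₃] (by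
        intro a
        fin_cases a
        · exact Q.one_mem
        · exact hy₁
        · exact hz
        · exact hy₃)
    have hu : (Finset.univ.erase (0 : Fin 4)) = {1, 2, 3} := by decide
    rw [hu, Finset.prod_insert (by decide), Finset.prod_insert (by decide), Finset.prod_singleton]
      at htp
    simp only [map_mul, Fin.val_zero, pow_zero, mul_one] at htp
    have e : ∀ a x : K, a⁻¹ * x = b → h x - h a = h a * (h b - 1) := by
      intro a x hax
      rw [mul_sub, mul_one, ← map_mul, ← hax]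
      congr 2
      group
    have h1 : ι (t 1) = h (σ y₁) * (h b - 1) := by
      rw [ht]; exact e _ _ hy₁'
    have h2 : ι (t 2) = h (σ (σ z)) * (h b - 1) := by
      rw [ht]; exact e _ _ rfl
    have h3 : ι (t 3) = h (σ (σ (σ y₃))) * (h b - 1) := by
      rw [ht]; exact e _ _ hy₃'
    have hc : ∀ u ∈ Q, Commute (h b - 1) (h u) := by
      intro u hu
      apply Commute.sub_left _ (Commute.one_left _)
      change h b * h u = h u * h b
      rw [← map_mul, hQ b hbQ u hu, map_mul]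
    have hinv : ∀ u : K, ∀ r : R, h u * r = 0 → r = 0 := by
      intro u r hr
      have := congrArg (fun w => h u⁻¹ * w) hr
      simpa [← mul_assoc, ← map_mul] using this
    rw [h1, h2, h3] at htp
    have h4 : (h b - 1) ^ 3 = 0 := by
      apply hinv (σ y₁)
      apply hinv (σ (σ z))
      apply hinv (σ (σ (σ y₃)))
      have c2 := hc _ (hQσ _ (hQσ z hz))
      have c3 := hc _ (hQσ _ (hQσ _ (hQσ _ hy₃)))
      have c1 := hc _ (hQσ _ hy₁)
      have d : ∀ u v : K, u ∈ Q → v ∈ Q → h u * h v = h v * h u := by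
        intro u v hu hv
        rw [← map_mul, hQ u hu v hv, map_mul]
      rw [← htp]
      have e1 : h (σ (σ z)) * (h (σ y₁)) = h (σ y₁) * h (σ (σ z)) :=
        d _ _ (hQσ _ (hQσ z hz)) (hQσ _ hy₁)
      have e2 : h (σ (σ (σ y₃))) * h (σ y₁) = h (σ y₁) * h (σ (σ (σ y₃))) :=
        d _ _ (hQσ _ (hQσ _ (hQσ _ hy₃))) (hQσ _ hy₁)
      have e3 : h (σ (σ (σ y₃))) * h (σ (σ z)) = h (σ (σ z)) * h (σ (σ (σ y₃))) :=
        d _ _ (hQσ _ (hQσ _ (hQσ _ hy₃))) (hQσ _ (hQσ z hz))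
      generalize h (σ (σ (σ y₃))) = u3 at *
      generalize h (σ (σ z)) = u2 at *
      generalize h (σ y₁) = u1 at *
      generalize h b - 1 = w at *
      have f2 : w * u2 = u2 * w := c2
      have f3 : w * u3 = u3 * w := c3
      calc u3 * (u2 * (u1 * w ^ 3)) = (u3 * (u2 * u1)) * w ^ 3 := by noncomm_ring
        _ = (u1 * (u2 * u3)) * w ^ 3 := by rw [e1, ← mul_assoc u3 u1 u2, e2, mul_assoc u1 u3 u2, e3]
        _ = u1 * u2 * (u3 * w) * w * w := by noncomm_ring
        _ = u1 * u2 * (w * u3) * w * w := by rw [f3]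
        _ = u1 * (u2 * w) * (u3 * w) * w := by noncomm_ring
        _ = u1 * (w * u2) * (w * u3) * w := by rw [f2, f3]
        _ = u1 * w * (u2 * w * (u3 * w)) := by noncomm_ring
    have h5 : h b = 1 := by
      refine eq_one_of_unipotent hp hR h4 (m := Nat.card Q) ?_ hQp
      rw [← map_pow]
      have : (⟨b, hbQ⟩ : Q) ^ Nat.card Q = 1 := pow_card_eq_one'
      have h6 : b ^ Nat.card Q = 1 := congrArg (Subtype.val : Q → K) this
      rw [h6, map_one]
    have h6 : h z = h (σ (σ z)) * h b := by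
      rw [← map_mul]; congr 1; rw [hb]; group
    rw [h6, h5, mul_one]
  refine ⟨key, ?_⟩
  have hE1 : s * (1 + s ^ 2) = - (1 + s ^ 2) := by
    have : s * (1 + s ^ 2) + (1 + s ^ 2) = 1 + s + s ^ 2 + s ^ 3 := by noncomm_ring
    rw [hs] at this
    exact eq_neg_of_add_eq_zero_left this
  intro z hz
  obtain ⟨y, hy, hyz⟩ := exists_div σ.toMonoidHom Q hQσ (fun x _ hx => hfpf x hx) z hz
  have h1 : h y * (1 + s ^ 2) = h (σ y) * (1 + s ^ 2) := by
    have h2 := hE y
    rw [key y hy, key (σ y) (hQσ y hy)] at h2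
    have h3 : h y * (1 + s ^ 2) + h (σ y) * (s * (1 + s ^ 2)) = 0 := by
      rw [← h2]; noncomm_ring
    rw [hE1] at h3
    have h4 : h y * (1 + s ^ 2) - h (σ y) * (1 + s ^ 2) = 0 := by
      rw [← h3]; noncomm_ring
    exact sub_eq_zero.1 h4
  rw [← hyz, map_mul, sub_mul, one_mul, mul_assoc]
  change h (σ y)⁻¹ * (h y * (1 + s ^ 2)) - _ = 0
  rw [h1, ← mul_assoc, ← map_mul, inv_mul_cancel, map_one, one_mul, sub_self]

end Cfsg.Agent.Lib.FpfRing
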