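import Mathlib

/-!
A metabelian group of order prime to `6` with a fixed-point-free action of `S₃` and a normal
subgroup `N` on whose quotient an involution acts trivially: then `K' ≤ N` (helper59).
-/

set_option autoImplicit false

namespace Cfsg.Agent.Lib.ThreeAct

open Subgroup
open scoped commutatorElement

universe u

theorem eq_one_of_pow {R : Type*} [Group R] [Finite R] {n : ℕ} (hcop : (Nat.card R).Coprime n)
    {y : R} (h : y ^ n = 1) : y = 1 := by
  have h1 := pow_gcd_eq_one.mpr ⟨pow_card_eq_one' (x := y), h⟩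
  rwa [hcop.gcd_eq_one, pow_one] at h1

theorem mem_of_pow_mem {R : Type*} [Group R] [Finite R] (S : Subgroup R) {n : ℕ}
    (hcop : (Nat.card R).Coprime n) {z : R} (hz : z ^ n ∈ S) : z ∈ S := by
  have h1 := Nat.gcd_eq_gcd_ab (Nat.card R) n
  rw [hcop.gcd_eq_one] at h1
  have h2 : z = (z ^ Nat.card R) ^ (Nat.gcdA (Nat.card R) n) * (z ^ n) ^ (Nat.gcdB (Nat.card R) n) := by
    rw [← zpow_natCast, ← zpow_natCast, ← zpow_mul, ← zpow_mul, ← zpow_add, ← h1]
    simp
  rw [h2, pow_card_eq_one', one_zpow, one_mul]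
  exact zpow_mem hz _

theorem commutator_le_of_three {K : Type u} [Group K] [Finite K] (σ δ : MulAut K)
    (N : Subgroup K) [N.Normal] (hcop : (Nat.card K).Coprime 6) (hσ : ∀ x, σ (σ (σ x)) = x)
    (hδσ : ∀ x, δ (σ x) = σ (σ (δ x)))
    (hδ : ∀ x, δ (δ x) = x) (hN : ∀ x, x⁻¹ * δ x ∈ N)
    (hq : ∀ M : Subgroup K, M.Normal → (∀ x ∈ M, σ x ∈ M) → (∀ x ∈ M, δ x ∈ M) →
      ∀ x, x⁻¹ * σ x ∈ M → x⁻¹ * δ x ∈ M → x ∈ M)
    (hab : ∀ x ∈ commutator K, ∀ y ∈ commutator K, x * y = y * x) : commutator K ≤ N := by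
  set π : K →* K ⧸ N := QuotientGroup.mk' N with hπ
  have hcopR : (Nat.card (K ⧸ N)).Coprime 6 :=
    Nat.Coprime.coprime_dvd_left (card_quotient_dvd_card N) hcop
  have hR2 : ∀ y : K ⧸ N, y ^ 2 = 1 → y = 1 := fun y hy =>
    eq_one_of_pow (n := 2) (Nat.Coprime.coprime_dvd_right (by norm_num) hcopR) hy
  have hR3 : ∀ y : K ⧸ N, y ^ 3 = 1 → y = 1 := fun y hy =>
    eq_one_of_pow (n := 3) (Nat.Coprime.coprime_dvd_right (by norm_num) hcopR) hy
  have hR6 : ∀ y : K ⧸ N, y ^ 6 = 1 → y = 1 := fun y hy => eq_one_of_pow (n := 6) hcopR hy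
  have h0δ : ∀ x, π (δ x) = π x := by
    intro x
    have := hN x
    rw [← QuotientGroup.eq] at this
    exact this.symm
  have hσδ : ∀ x, σ (δ x) = δ (σ (σ x)) := by
    intro x
    rw [hδσ, hδσ, hσ]
  have h1δ : ∀ x, π (σ (δ x)) = π (σ (σ x)) := fun x => by rw [hσδ, h0δ]
  have h2δ : ∀ x, π (σ (σ (δ x))) = π (σ x) := fun x => by rw [← hδσ, h0δ]
  have hsurj : Function.Surjective π := QuotientGroup.mk'_surjective N
  -- fixed points
  have key : ∀ g, π (σ g) = π g → π (σ (σ g)) = π g → π g = 1 := by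
    intro g h1 h2
    let M : Subgroup K := (π.ker ⊓ (π.comp σ.toMonoidHom).ker) ⊓
      ((π.comp σ.toMonoidHom).comp σ.toMonoidHom).ker
    have hM : ∀ x, x ∈ M ↔ π x = 1 ∧ π (σ x) = 1 ∧ π (σ (σ x)) = 1 := by
      intro x
      constructor
      · rintro ⟨⟨h1, h2⟩, h3⟩
        exact ⟨h1, h2, h3⟩
      · rintro ⟨h1, h2, h3⟩
        exact ⟨⟨h1, h2⟩, h3⟩
    have hMn : M.Normal := inferInstance
    have h3 := hq M hMn (by
      intro x hx
      rw [hM] at hx ⊢
      refine ⟨hx.2.1, hx.2.2, ?_⟩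
      rw [hσ]
      exact hx.1) (by
      intro x hx
      rw [hM] at hx ⊢
      exact ⟨by rw [h0δ]; exact hx.1, by rw [h1δ]; exact hx.2.2, by rw [h2δ]; exact hx.2.1⟩) g
      (by
        rw [hM]
        simp only [map_mul, map_inv, hσ, h1, h2]
        simp) (by
        rw [hM]
        simp only [map_mul, map_inv, h0δ, h1δ, h2δ, h1, h2]
        simp)
    exact ((hM g).1 h3).1
  -- the graph `C`
  let C : Subgroup K :=
    { carrier := {g | π (σ g) = π (σ (σ g))}
      one_mem' := by simp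
      mul_mem' := by
        intro x y (hx : π (σ x) = π (σ (σ x))) (hy : π (σ y) = π (σ (σ y)))
        change π (σ (x * y)) = π (σ (σ (x * y)))
        simp only [map_mul, hx, hy]
      inv_mem' := by
        intro x (hx : π (σ x) = π (σ (σ x)))
        change π (σ x⁻¹) = π (σ (σ x⁻¹))
        simp only [map_inv, hx] }
  have hC : ∀ g, g ∈ C ↔ π (σ g) = π (σ (σ g)) := fun g => Iff.rfl
  have hCa : ∀ g ∈ C, π g = 1 → π (σ g) = 1 := by
    intro g hg h1
    rw [hC] at hg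
    have h2 : π (g * σ g * σ (σ g)) = π (σ g) ^ 2 := by
      rw [map_mul, map_mul, h1, ← hg, one_mul, sq]
    have h3 : π (σ (g * σ g * σ (σ g))) = π (σ g) ^ 2 := by
      simp only [map_mul, hσ]
      rw [h1, ← hg, mul_one, sq]
    have h4 : π (σ (σ (g * σ g * σ (σ g)))) = π (σ g) ^ 2 := by
      simp only [map_mul, hσ]
      rw [h1, ← hg, mul_one, sq]
    have h5 := key _ (h3.trans h2.symm) (h4.trans h2.symm)
    rw [h2] at h5
    exact hR2 _ h5
  have hCinj : ∀ g ∈ C, ∀ g' ∈ C, π g = π g' → π (σ g) = π (σ g') := by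
    intro g hg g' hg' h
    have h1 := hCa (g * g'⁻¹) (mul_mem hg (inv_mem hg')) (by rw [map_mul, map_inv, h, mul_inv_cancel])
    rwa [map_mul, map_mul, map_inv, map_inv, mul_inv_eq_one] at h1
  -- fixed points of `δ` lie in `C` and cover the quotient
  have hδC : ∀ g, δ g = g → g ∈ C := by
    intro g hg
    rw [hC, ← h1δ, hg]
  have hcov : ∀ g, ∃ g', δ g' = g' ∧ π g' = π g := by
    intro g
    set n := g⁻¹ * δ g with hn
    have hnδ : δ n = n⁻¹ := by
      rw [hn, map_mul, map_inv, hδ]; group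
    have hodd : ¬ 2 ∣ Nat.card K := by
      intro h
      have := Nat.dvd_gcd h (by norm_num : 2 ∣ 6)
      rw [hcop.gcd_eq_one] at this
      omega
    set m := n ^ ((Nat.card K + 1) / 2) with hm
    have hmm : m * m = n := by
      rw [hm, ← pow_add, ← two_mul, Nat.mul_div_cancel' (by omega), pow_succ, pow_card_eq_one',
        one_mul]
    have hmδ : δ m = m⁻¹ := by rw [hm, map_pow, hnδ, inv_pow]
    have hmN : m ∈ N := pow_mem (hN g) _
    refine ⟨g * m, ?_, ?_⟩
    · have h1 : δ g = g * n := by rw [hn]; group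
      rw [map_mul, hmδ, h1, ← hmm]
      group
    · rw [map_mul]
      have : π m = 1 := (QuotientGroup.eq_one_iff m).2 hmN
      rw [this, mul_one]
  -- the derived group of the quotient
  have hRC : ∀ t ∈ commutator (K ⧸ N), ∃ u ∈ C, u ∈ commutator K ∧ π u = t := by
    intro t ht
    have h1 : C.map π = ⊤ := by
      rw [eq_top_iff]
      intro y _
      obtain ⟨g, rfl⟩ := hsurj y
      obtain ⟨g', h1, h2⟩ := hcov g
      exact ⟨g', hδC g' h1, h2⟩
    have h2 : ⁅C, C⁆.map π = commutator (K ⧸ N) := by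
      rw [map_commutator, h1, commutator_def]
    rw [← h2] at ht
    obtain ⟨u, hu, rfl⟩ := ht
    exact ⟨u, (le_normalizer_iff_commutator_le_left.mp le_normalizer) hu,
      commutator_mono le_top le_top hu, rfl⟩
  have hσcomm : ∀ u ∈ commutator K, σ u ∈ commutator K := fun u hu =>
    (Subgroup.characteristic_iff_le_comap.1 (inferInstance : (commutator K).Characteristic) σ) hu
  have hsq : ∀ u ∈ C, u ∈ commutator K → π (σ u) ^ 2 = (π u)⁻¹ := by
    intro u hu hu'
    rw [hC] at hu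
    have h1 : σ u ∈ commutator K := hσcomm _ hu'
    have h2 : σ (σ u) ∈ commutator K := hσcomm _ h1
    have e1 : π u * π (σ u) = π (σ u) * π u := by
      rw [← map_mul, hab u hu' _ h1, map_mul]
    have h3 : π (u * σ u * σ (σ u)) = π u * π (σ u) ^ 2 := by
      rw [map_mul, map_mul, ← hu, sq, mul_assoc]
    have h4 : π (σ (u * σ u * σ (σ u))) = π u * π (σ u) ^ 2 := by
      simp only [map_mul, hσ]
      rw [← hu, sq, ← mul_assoc, e1, mul_assoc, mul_assoc, e1]
    have h5 : π (σ (σ (u * σ u * σ (σ u)))) = π u * π (σ u) ^ 2 := by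
      simp only [map_mul, hσ]
      rw [← hu, sq, ← mul_assoc, e1]
    have h6 := key _ (h4.trans h3.symm) (h5.trans h3.symm)
    rw [h3] at h6
    exact (inv_eq_of_mul_eq_one_right h6).symm
  -- conjugation
  have hconj : ∀ g ∈ C, ∀ t ∈ commutator (K ⧸ N),
      π g * t * (π g)⁻¹ = π (σ g) * t * (π (σ g))⁻¹ := by
    intro g hg t ht
    obtain ⟨u, hu, hu', rfl⟩ := hRC t ht
    have h1 := hsq u hu hu'
    have h2 := hsq (g * u * g⁻¹) (mul_mem (mul_mem hg hu) (inv_mem hg))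
      ((inferInstance : (commutator K).Normal).conj_mem u hu' g)
    simp only [map_mul, map_inv] at h2
    rw [conj_pow, h1] at h2
    have h3 := congrArg (·⁻¹) h2
    simp only [mul_inv_rev, inv_inv, mul_assoc] at h3 ⊢
    exact h3.symm
  -- the product `g σ(g) σ²(g)`
  have hprod : ∀ g, δ g = g → g * σ g * σ (σ g) ∈ commutator K := by
    intro g hg
    have hmod : ∀ x y : K, (x * y)⁻¹ * (y * x) ∈ commutator K := by
      intro x y
      have : (x * y)⁻¹ * (y * x) = ⁅y⁻¹, x⁻¹⁆ := by rw [commutatorElement_def]; group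
      rw [this]
      exact commutator_mem_commutator trivial trivial
    apply hq (commutator K) inferInstance hσcomm
      (fun u hu => (Subgroup.characteristic_iff_le_comap.1
        (inferInstance : (commutator K).Characteristic) δ) hu)
    · simp only [map_mul, hσ]
      have : (g * σ g * σ (σ g))⁻¹ * (σ g * σ (σ g) * g) =
        (g * (σ g * σ (σ g)))⁻¹ * ((σ g * σ (σ g)) * g) := by group
      rw [this]
      exact hmod _ _
    · simp only [map_mul]
      rw [hδσ, hδσ, hδσ, hσ, hg]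
      have : (g * σ g * σ (σ g))⁻¹ * (g * σ (σ g) * σ g) =
        (σ g * σ (σ g))⁻¹ * (σ (σ g) * σ g) := by group
      rw [this]
      exact hmod _ _
  -- `R' ≤ Z(R)`
  have habR : ∀ s ∈ commutator (K ⧸ N), ∀ t ∈ commutator (K ⧸ N), s * t = t * s := by
    intro s hs t ht
    obtain ⟨u, -, hu, rfl⟩ := hRC s hs
    obtain ⟨u', -, hu', rfl⟩ := hRC t ht
    rw [← map_mul, hab u hu u' hu', map_mul]
  have hmapc : ∀ u ∈ commutator K, π u ∈ commutator (K ⧸ N) := by
    intro u hu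
    have h2 : (commutator K).map π ≤ commutator (K ⧸ N) := by
      rw [commutator_def, map_commutator]
      exact commutator_mono le_top le_top
    exact h2 ⟨u, hu, rfl⟩
  have hzw : ∀ g, δ g = g → π g * π (σ g) ^ 2 ∈ commutator (K ⧸ N) := by
    intro g hg
    have h1 := hmapc _ (hprod g hg)
    have h2 := hδC g hg
    rw [hC] at h2
    rw [map_mul, map_mul, ← h2, mul_assoc, ← sq] at h1
    exact h1
  have hcent : ∀ z : K ⧸ N, ∀ t ∈ commutator (K ⧸ N), z * t = t * z := by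
    intro z t ht
    obtain ⟨g₀, rfl⟩ := hsurj z
    obtain ⟨g, hg, hgg⟩ := hcov g₀
    rw [← hgg]
    have hgC := hδC g hg
    -- conjugation by `z` and by `w` agree
    have hcj := hconj g hgC
    set z := π g with hz
    set w := π (σ g) with hw
    have hn : (commutator (K ⧸ N)).Normal := inferInstance
    have h1 : (z * w ^ 2) * t * (z * w ^ 2)⁻¹ = z ^ 3 * t * (z ^ 3)⁻¹ := by
      have e1 : w * t * w⁻¹ = z * t * z⁻¹ := (hcj t ht).symm
      have e2 : w * (z * t * z⁻¹) * w⁻¹ = z * (z * t * z⁻¹) * z⁻¹ :=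
        (hcj _ (hn.conj_mem t ht z)).symm
      calc (z * w ^ 2) * t * (z * w ^ 2)⁻¹ = z * (w * (w * t * w⁻¹) * w⁻¹) * z⁻¹ := by
            rw [sq]; group
        _ = z * (w * (z * t * z⁻¹) * w⁻¹) * z⁻¹ := by rw [e1]
        _ = z * (z * (z * t * z⁻¹) * z⁻¹) * z⁻¹ := by rw [e2]
        _ = _ := by rw [pow_succ, pow_two]; group
    have h2 : (z * w ^ 2) * t = t * (z * w ^ 2) := habR _ (hzw g hg) t ht
    have h3 : z ^ 3 * t = t * z ^ 3 := by
      have : z ^ 3 * t * (z ^ 3)⁻¹ = t := by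
        rw [← h1, h2]; group
      calc z ^ 3 * t = (z ^ 3 * t * (z ^ 3)⁻¹) * z ^ 3 := by group
        _ = t * z ^ 3 := by rw [this]
    have h4 : (Nat.card (K ⧸ N)).Coprime 3 := Nat.Coprime.coprime_dvd_right (by norm_num) hcopR
    have h5 := mem_of_pow_mem (centralizer {t}) h4 (z := z)
      (mem_centralizer_singleton_iff.2 h3)
    exact mem_centralizer_singleton_iff.1 h5
  -- `w ^ 2 = z⁻¹`
  have hw2 : ∀ g, δ g = g → π (σ g) ^ 2 = (π g)⁻¹ := by
    intro g hg
    have hgC := hδC g hg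
    rw [hC] at hgC
    have h1 := hzw g hg
    have e1 : π g * π (σ g) = π (σ g) * π g := by
      have h2 := hcent (π (σ g)) _ h1
      -- `w z w² = z w² w`
      have h3 : π (σ g) * π g * π (σ g) ^ 2 = π g * π (σ g) * π (σ g) ^ 2 := by
        rw [mul_assoc, h2, mul_assoc, mul_assoc, ← pow_succ, ← pow_succ']
      exact (mul_right_cancel h3).symm
    have h3 : π (g * σ g * σ (σ g)) = π g * π (σ g) ^ 2 := by
      rw [map_mul, map_mul, ← hgC, sq, mul_assoc]
    have h4 : π (σ (g * σ g * σ (σ g))) = π g * π (σ g) ^ 2 := by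
      simp only [map_mul, hσ]
      rw [← hgC, sq, ← mul_assoc, e1, mul_assoc, mul_assoc, e1]
    have h5 : π (σ (σ (g * σ g * σ (σ g)))) = π g * π (σ g) ^ 2 := by
      simp only [map_mul, hσ]
      rw [← hgC, sq, ← mul_assoc, e1]
    have h6 := key _ (h4.trans h3.symm) (h5.trans h3.symm)
    rw [h3] at h6
    exact (inv_eq_of_mul_eq_one_right h6).symm
  -- the quotient is abelian
  have hcl2 : ∀ x y : K ⧸ N, ∀ z : K ⧸ N, z * ⁅x, y⁆ = ⁅x, y⁆ * z := fun x y z =>
    hcent z _ (commutator_mem_commutator trivial trivial)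
  have hsqc : ∀ x y : K ⧸ N, ⁅x ^ 2, y⁆ = ⁅x, y⁆ ^ 2 := by
    intro x y
    have h1 : ⁅x ^ 2, y⁆ = x * ⁅x, y⁆ * x⁻¹ * ⁅x, y⁆ := by
      simp only [commutatorElement_def, sq]; group
    rw [h1, hcl2 x y x, mul_inv_cancel_right, sq]
  have hsqc' : ∀ x y : K ⧸ N, ⁅x, y ^ 2⁆ = ⁅x, y⁆ ^ 2 := by
    intro x y
    rw [← commutatorElement_inv, hsqc, ← inv_pow, commutatorElement_inv]
  have hinvc : ∀ x y : K ⧸ N, ⁅x⁻¹, y⁆ = ⁅x, y⁆⁻¹ := by
    intro x y
    have h1 : ⁅x⁻¹, y⁆ = x⁻¹ * ⁅x, y⁆⁻¹ * x := by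
      simp only [commutatorElement_def]; group
    have h2 := hcl2 y x x⁻¹
    rw [commutatorElement_inv] at h1
    rw [h1, h2, inv_mul_cancel_right, commutatorElement_inv]
  have hfin : ∀ x y : K ⧸ N, ⁅x, y⁆ = 1 := by
    intro x y
    obtain ⟨g₀, rfl⟩ := hsurj x
    obtain ⟨g₁, rfl⟩ := hsurj y
    obtain ⟨g, hg, hgx⟩ := hcov g₀
    obtain ⟨g', hg', hgy⟩ := hcov g₁
    rw [← hgx, ← hgy]
    have h1 := hw2 ⁅g, g'⁆ (by rw [map_commutatorElement, hg, hg'])
    rw [map_commutatorElement σ, map_commutatorElement π, map_commutatorElement π] at h1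
    have h2 : π g = (π (σ g) ^ 2)⁻¹ := by rw [hw2 g hg, inv_inv]
    have h3 : π g' = (π (σ g') ^ 2)⁻¹ := by rw [hw2 g' hg', inv_inv]
    have h4 : ⁅π g, π g'⁆ = ⁅π (σ g), π (σ g')⁆ ^ 4 := by
      rw [h2, h3, hinvc, commutatorElement_inv, hinvc, commutatorElement_inv, hsqc, hsqc', ← pow_mul]
    rw [h4] at h1
    have h5 : ⁅π (σ g), π (σ g')⁆ ^ 6 = 1 := by
      have : ⁅π (σ g), π (σ g')⁆ ^ 6 = ⁅π (σ g), π (σ g')⁆ ^ 2 * ⁅π (σ g), π (σ g')⁆ ^ 4 := by
        rw [← pow_add]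
      rw [this, h1, inv_mul_cancel]
    rw [h4, hR6 _ h5, one_pow]
  rw [_root_.commutator_def, commutator_le]
  intro x _ y _
  have h1 := hfin (π x) (π y)
  rw [← map_commutatorElement] at h1
  exact (QuotientGroup.eq_one_iff _).1 h1

end Cfsg.Agent.Lib.ThreeAct
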