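import Cfsg.Agent.Lib.Ward2
import Cfsg.Agent.Lib.ThreeAct
import Cfsg.Agent.Lib.FpfRing

/-!
Fixed-point-free action of `S₃` (helper59).
-/

set_option autoImplicit false

namespace Cfsg.Agent.Lib.S3Fpf

open Module Subgroup Cfsg.Agent.Lib.WtGroup Cfsg.Agent.Lib.Weights Cfsg.Agent.Lib.CoprimeAction
  Cfsg.Agent.Lib.CoprimeAction2 Cfsg.Agent.Lib.SubgroupTools Cfsg.Agent.Lib.Ward
open scoped commutatorElement Pointwise

universe u v w

section Basic

variable {Γ : Type u} [Group Γ] {k : Type v} {W : Type w} [Field k] [AddCommGroup W]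
  [Module k W]

theorem mem_of_pow_mem' {S : Subgroup Γ} {m n : ℕ} (hcop : m.Coprime n) {z : Γ} (hm : z ^ m = 1)
    (hz : z ^ n ∈ S) : z ∈ S := by
  have h1 := Nat.gcd_eq_gcd_ab m n
  rw [hcop.gcd_eq_one] at h1
  have h2 : z = (z ^ m) ^ (Nat.gcdA m n) * (z ^ n) ^ (Nat.gcdB m n) := by
    rw [← zpow_natCast, ← zpow_natCast, ← zpow_mul, ← zpow_mul, ← zpow_add, ← h1]
    simp
  rw [h2, hm, one_zpow, one_mul]
  exact zpow_mem hz _

/-- Glauberman's lemma for weights -/
theorem exists_fixed_weight [Finite Γ] {D K A : Subgroup Γ} [hD : D.Normal]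
    (hAK : A ≤ normalizer (K : Set Γ)) (hcop : (Nat.card A).Coprime (Nat.card K))
    (hsolv : Group.IsSolvable A ∨ Group.IsSolvable K) (χ : Γ → k)
    (hx : ∀ a ∈ A, ∃ y ∈ K, y⁻¹ * a ∈ stab D χ) : ∃ y ∈ K, A ≤ stab D (tw y χ) := by
  classical
  let _ : MulAction Γ (Γ → k) :=
    { smul := fun g f => tw g f
      one_smul := by
        intro f
        funext x
        change f ((1 : Γ)⁻¹ * x * 1) = f x
        congr 1
        group
      mul_smul := by
        intro g h f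
        funext x
        change f ((g * h)⁻¹ * x * (g * h)) = f (h⁻¹ * (g⁻¹ * x * g) * h)
        congr 1
        group }
  have hsm : ∀ (g : Γ) (f : Γ → k) (x : Γ), (g • f) x = f (g⁻¹ * x * g) := fun g f x => rfl
  let χ' : Γ → k := fun x => if x ∈ D then χ x else 0
  have hcD : ∀ (g x : Γ), g⁻¹ * x * g ∈ D ↔ x ∈ D := by
    intro g x
    constructor
    · intro h
      have := hD.conj_mem _ h g
      have h2 : g * (g⁻¹ * x * g) * g⁻¹ = x := by group
      rwa [h2] at this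
    · intro h
      have := hD.conj_mem _ h g⁻¹
      rwa [inv_inv] at this
  obtain ⟨y, hy, h⟩ := exists_fixed_point hAK hcop hsolv χ' (by
    intro a ha
    obtain ⟨y, hy, hya⟩ := hx a ha
    refine ⟨y, hy, ?_⟩
    funext x
    rw [hsm, hsm]
    by_cases hxD : x ∈ D
    · have h1 := hya.2 (y⁻¹ * x * y) ((hcD y x).2 hxD)
      have h2 : (y⁻¹ * a)⁻¹ * (y⁻¹ * x * y) * (y⁻¹ * a) = a⁻¹ * x * a := by group
      rw [h2] at h1
      simp only [χ', if_pos ((hcD a x).2 hxD), if_pos ((hcD y x).2 hxD), h1]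
    · have h1 : a⁻¹ * x * a ∉ D := fun h => hxD ((hcD a x).1 h)
      have h2 : y⁻¹ * x * y ∉ D := fun h => hxD ((hcD y x).1 h)
      simp only [χ', if_neg h1, if_neg h2])
  refine ⟨y, hy, fun a ha => ⟨by rw [normalizer_eq_top]; trivial, fun x hxD => ?_⟩⟩
  have h1 := congrFun (h a ha) x
  rw [hsm, hsm, hsm] at h1
  have h2 : y⁻¹ * (a⁻¹ * x * a) * y ∈ D := (hcD y _).2 ((hcD a x).2 hxD)
  have h3 : y⁻¹ * x * y ∈ D := (hcD y x).2 hxD
  simp only [χ', if_pos h2, if_pos h3] at h1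
  rw [tw_apply, tw_apply]
  exact h1

/-- an element commuting with `c` and with `C_L(c)` fixes all the weights of `L` fixed by `c` -/
theorem mem_stab_of_commute [Finite Γ] {H : Γ →* Module.End k W} {L : Subgroup Γ} {χ : Γ → k}
    {v : W} (hv : IsWt H L χ v) (hv0 : v ≠ 0) {c x : Γ} (hc : c ∈ stab L χ)
    (hcop : (Nat.card (zpowers c)).Coprime (Nat.card L)) (hsol : Group.IsSolvable L)
    (hxL : x ∈ normalizer (L : Set Γ)) (hxc : Commute x c)
    (hx : ∀ y ∈ L, Commute y c → Commute x y) : x ∈ stab L χ := by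
  refine ⟨hxL, fun z hz => ?_⟩
  have haN : zpowers c ≤ normalizer (L : Set Γ) := zpowers_le.2 hc.1
  obtain ⟨u, hu, c', hc', rfl⟩ := exists_eq_mul_of_mem haN hcop (Or.inr hsol) hz
  have hcZ : c' ∈ L := hc'.1
  have hca : Commute c' c := (mem_centralizer_iff.1 hc'.2 c (mem_zpowers c)).symm
  have hxc' : Commute x c' := hx c' hcZ hca
  have hle := commutator_le_kerWt hv hv0 (zpowers_le.2 hc)
  have huZ : u ∈ L := (hle hu).1
  have h1 : x⁻¹ * (u * c') * x = (x⁻¹ * u * x) * c' := by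
    have : c' * x = x * c' := hxc'.symm.eq
    calc x⁻¹ * (u * c') * x = x⁻¹ * u * (c' * x) := by group
      _ = x⁻¹ * u * (x * c') := by rw [this]
      _ = _ := by group
  have hxN : x ∈ normalizer ((⁅L, zpowers c⁆ : Subgroup Γ) : Set Γ) := by
    apply Lib.H32PSolv.le_normalizer_commutator (K := zpowers x)
      (zpowers_le.2 hxL) _ (mem_zpowers x)
    rw [zpowers_le, mem_normalizer_iff_conj_smul]
    ext y
    rw [mem_conj_smul]
    constructor
    · intro hy
      have h5 : Commute x (x⁻¹ * y * x) := by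
        obtain ⟨n, hn⟩ := mem_zpowers_iff.1 hy
        rw [← hn]
        exact hxc.zpow_right n
      have h6 : x⁻¹ * y * x = y := by
        have := h5.eq
        calc x⁻¹ * y * x = x * (x⁻¹ * y * x) * x⁻¹ := by rw [this]; group
          _ = y := by group
      rwa [h6] at hy
    · intro hy
      have h5 : Commute x y := by
        obtain ⟨n, hn⟩ := mem_zpowers_iff.1 hy
        rw [← hn]
        exact hxc.zpow_right n
      have h6 : x⁻¹ * y * x = y := by rw [mul_assoc, ← h5.eq, inv_mul_cancel_left]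
      rwa [h6]
  have h2 : x⁻¹ * u * x ∈ ⁅L, zpowers c⁆ := conj_mem_of_normalizer hxN hu
  rw [h1, isWt_mul hv hv0 (hle h2).1 hcZ, (hle h2).2, isWt_mul hv hv0 huZ hcZ, (hle hu).2]

/-- an involution without fixed points inverts -/
theorem inv_of_fpf_involution [Finite Γ] {E : Subgroup Γ} {a : Γ} (ha : a ^ 2 = 1)
    (haE : ∀ x ∈ E, a * x * a⁻¹ ∈ E) (hf : ∀ x ∈ E, a * x * a⁻¹ = x → x = 1) :
    ∀ x ∈ E, a * x * a⁻¹ = x⁻¹ := by
  intro x hx
  obtain ⟨y, hy, hyx⟩ := FpfRing.exists_div (MulAut.conj a).toMonoidHom E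
    (fun x hx => haE x hx) (fun x hx h => hf x hx h) x hx
  have h1 : (a * y * a⁻¹)⁻¹ * y = x := hyx
  have h2 : a * a = 1 := by rw [← sq, ha]
  have h3 : a * (a * y * a⁻¹) * a⁻¹ = y := by
    calc a * (a * y * a⁻¹) * a⁻¹ = (a * a) * y * (a * a)⁻¹ := by group
      _ = y := by rw [h2]; group
  rw [← h1]
  calc a * ((a * y * a⁻¹)⁻¹ * y) * a⁻¹ = (a * (a * y * a⁻¹) * a⁻¹)⁻¹ * (a * y * a⁻¹) := by
        simp only [mul_inv_rev, inv_inv, mul_assoc, inv_mul_cancel_left]
    _ = y⁻¹ * (a * y * a⁻¹) := by rw [h3]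
    _ = _ := by group

end Basic

section Main

/-- the internal theorem on `S₃` acting fixed-point-freely -/
theorem commutator_eq_bot {Γ : Type u} [Group Γ] [Finite Γ] {k : Type v} {W : Type w} [Field k]
    [IsAlgClosed k] [AddCommGroup W] [Module k W] [FiniteDimensional k W]
    (H : Γ →* Module.End k W) (K A : Subgroup Γ) [hKn : K.Normal] [Fintype A]
    (hKs : Group.IsSolvable K) (hinj : ∀ x ∈ K, H x = 1 → x = 1)
    (hcop : (Nat.card K).Coprime 6) (hAc : Nat.card A = 6) (c : Γ) (hcA : c ∈ A) (hc3 : c ^ 3 = 1)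
    (hc1 : c ≠ 1) (hAinv : ∀ a ∈ A, a ∉ zpowers c → a ^ 2 = 1 ∧ a * c * a⁻¹ = c⁻¹)
    (hAind : ∀ a ∈ A, ∀ b ∈ A, a ∉ zpowers c → b ∉ zpowers c → a * b ∈ zpowers c)
    (hfix : K ⊓ centralizer (A : Set Γ) = ⊥) (hsum : ∀ w : W, ∑ a : A, H (a : Γ) w = 0)
    (hab : ∀ x ∈ ⁅K, K⁆, ∀ y ∈ ⁅K, K⁆, x * y = y * x)
    (hk : (Nat.card (⁅K, K⁆ : Subgroup Γ) : k) ≠ 0) : ⁅K, K⁆ = ⊥ := by
  classical
  set D : Subgroup Γ := ⁅K, K⁆ with hD
  have hDn : D.Normal := inferInstance
  have hDK : D ≤ K := le_normalizer_iff_commutator_le_left.mp le_normalizer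
  have hcopS : ∀ S L : Subgroup Γ, S ≤ A → L ≤ K → (Nat.card S).Coprime (Nat.card L) := by
    intro S L hS hL
    have h1 : Nat.card S ∣ 6 := by rw [← hAc]; exact card_dvd_of_le hS
    exact Nat.Coprime.coprime_dvd_left h1
      (Nat.Coprime.coprime_dvd_right (card_dvd_of_le hL) hcop.symm)
  have hsolvle : ∀ L : Subgroup Γ, L ≤ K → Group.IsSolvable L := fun L hL => isSolvable_of_le hL hKs
  have hnorm : ∀ S L : Subgroup Γ, L.Normal → S ≤ normalizer (L : Set Γ) := by
    intro S L hL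
    rw [normalizer_eq_top]; exact le_top
  have hsupA : ∀ S : Subgroup Γ, c ∈ S → (∃ a ∈ A, a ∉ zpowers c ∧ a ∈ S) → A ≤ S := by
    rintro S hcS ⟨a, haA, hac, haS⟩ b hb
    by_cases hbc : b ∈ zpowers c
    · exact (zpowers_le.2 hcS) hbc
    · have h1 := (zpowers_le.2 hcS) (hAind a haA b hb hac hbc)
      have h2 := mul_mem (inv_mem haS) h1
      rwa [inv_mul_cancel_left] at h2
  have hfix1 : ∀ x ∈ K, Commute x c → (∃ a ∈ A, a ∉ zpowers c ∧ Commute x a) → x = 1 := by
    rintro x hx hxc ⟨a, haA, hac, hxa⟩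
    have h1 := hsupA (centralizer {x}) (mem_centralizer_singleton_iff.2 hxc.symm)
      ⟨a, haA, hac, mem_centralizer_singleton_iff.2 hxa.symm⟩
    have h4 : x ∈ K ⊓ centralizer (A : Set Γ) := by
      refine ⟨hx, ?_⟩
      change x ∈ centralizer (A : Set Γ)
      rw [mem_centralizer_iff]
      intro g hg
      exact mem_centralizer_singleton_iff.1 (h1 hg)
    rw [hfix, mem_bot] at h4
    exact h4
  have hp3 : Nat.Prime 3 := by norm_num
  have hgenc : ∀ b ∈ zpowers c, b ≠ 1 → c ∈ zpowers b := fun b hb hb1 => gen_of_mem hp3 hc3 hb hb1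
  have hpowcard : ∀ L : Subgroup Γ, ∀ x ∈ L, x ^ Nat.card L = 1 := by
    intro L x hx
    have h1 : (⟨x, hx⟩ : L) ^ Nat.card L = 1 := pow_card_eq_one'
    exact congrArg (Subtype.val : L → Γ) h1
  have hroot6 : ∀ S : Subgroup Γ, ∀ x ∈ K, x ^ 6 ∈ S → x ∈ S := fun S x hx h =>
    mem_of_pow_mem' hcop (hpowcard K x hx) h
  -- weights of `D`
  have hA1 : ∀ (χ : Γ → k) (v : W), v ≠ 0 → IsWt H D χ v → A ≤ stab D χ → ∀ x ∈ D, χ x = 1 := by
    intro χ v hv0 hv hAst
    refine eq_one_of_fixed hv hv0 hAst (hcopS A D le_rfl hDK) (Or.inr (hsolvle D hDK)) ?_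
    rw [eq_bot_iff, ← hfix]
    exact inf_le_inf_right _ hDK
  have hexc : ∀ (χ : Γ → k) (v : W), v ≠ 0 → IsWt H D χ v → ∃ b ∈ A, b ≠ 1 ∧ b ∈ stab D χ := by
    intro χ' v' hv'0 hv'
    by_contra hcon
    push Not at hcon
    have h1 := sum_stab_eq_zero H (hnorm A D hDn) hv' (hsum v')
    have h2 : (Finset.univ.filter fun a' : A => (a' : Γ) ∈ stab D χ') = {1} := by
      ext a'
      simp only [Finset.mem_filter, Finset.mem_univ, true_and, Finset.mem_singleton]
      constructor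
      · intro h
        by_contra h3
        exact hcon a' a'.2 (fun h4 => h3 (Subtype.ext h4)) h
      · rintro rfl
        exact one_mem _
    rw [h2, Finset.sum_singleton] at h1
    apply hv'0
    simpa using h1
  have hne0 : ∀ (x : Γ) (v : W), v ≠ 0 → H x v ≠ 0 := fun x v hv0 => ne_zero_of_H hv0 x
  have htw : ∀ (x : Γ) (χ : Γ → k) (v : W), IsWt H D χ v → IsWt H D (tw x χ) (H x v) :=
    fun x χ v hv => isWt_tw H hv (hnorm ⊤ D hDn trivial)
  have hmst : ∀ (x g : Γ) (χ : Γ → k), g ∈ stab D (tw x χ) ↔ x⁻¹ * g * x ∈ stab D χ :=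
    fun x g χ => mem_stab_tw (hnorm ⊤ D hDn trivial)
  -- `C_K(c)`
  set E : Subgroup Γ := K ⊓ centralizer {c} with hE
  have hEc : ∀ x ∈ E, Commute x c := fun x hx => mem_centralizer_singleton_iff.1 hx.2
  have hinvE : ∀ x ∈ E, ∀ a ∈ A, a ∉ zpowers c → a * x * a⁻¹ = x⁻¹ := by
    intro x hx a haA hac
    obtain ⟨ha2, hac'⟩ := hAinv a haA hac
    refine inv_of_fpf_involution ha2 (E := E) ?_ ?_ x hx
    · intro y hy
      refine ⟨hKn.conj_mem y hy.1 a, ?_⟩
      change a * y * a⁻¹ ∈ centralizer {c}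
      rw [mem_centralizer_singleton_iff]
      have h1 : Commute (a * y * a⁻¹) (a * c * a⁻¹) := (Commute.conj_iff a).2 (hEc y hy)
      rw [hac'] at h1
      have h2 := h1.inv_right
      rw [inv_inv] at h2
      exact h2.eq
    · intro y hy h
      refine hfix1 y hy.1 (hEc y hy) ⟨a, haA, hac, ?_⟩
      change y * a = a * y
      rw [mul_inv_eq_iff_eq_mul] at h
      exact h.symm
  have hexd : ∃ a ∈ A, a ∉ zpowers c := by
    by_contra hcon
    push Not at hcon
    have h1 := card_le_of_le (show A ≤ zpowers c from hcon)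
    rw [hAc, Nat.card_zpowers, orderOf_eq_prime hc3 hc1] at h1
    omega
  have hEab : ∀ x ∈ E, ∀ y ∈ E, Commute x y := by
    intro x hx y hy
    obtain ⟨a, haA, hac⟩ := hexd
    have h1 := hinvE _ (mul_mem hx hy) a haA hac
    have h2 : a * (x * y) * a⁻¹ = x⁻¹ * y⁻¹ := by
      rw [← hinvE x hx a haA hac, ← hinvE y hy a haA hac]; group
    rw [h2, ← mul_inv_rev] at h1
    exact (inv_injective h1).symm
  -- `C_K(c)` fixes all the weights
  have hE2 : ∀ (χ : Γ → k) (v : W), v ≠ 0 → IsWt H D χ v → ∀ x ∈ E, c ∈ stab D χ → x ∈ stab D χ := by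
    intro χ v hv0 hv x hx hc
    exact mem_stab_of_commute hv hv0 hc (hcopS _ D (zpowers_le.2 hcA) hDK) (hsolvle D hDK)
      (hnorm ⊤ D hDn trivial) (hEc x hx)
      (fun y hy hyc => hEab x hx y ⟨hDK hy, mem_centralizer_singleton_iff.2 hyc⟩)
  -- nontrivial weights fixed by `c` are fixed by `K`
  have hglaub : ∀ (χ : Γ → k) (v : W), v ≠ 0 → IsWt H D χ v → (∃ z ∈ D, χ z ≠ 1) →
      (c ∈ K ⊔ stab D χ) → (∃ a ∈ A, a ∉ zpowers c ∧ a ∈ K ⊔ stab D χ) → False := by
    rintro χ v hv0 hv ⟨z, hz, hz1⟩ hcK haK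
    have h1 := hsupA _ hcK haK
    have hstN : stab D χ ≤ normalizer (K : Set Γ) := hnorm _ K hKn
    obtain ⟨y, hy, hyA⟩ := exists_fixed_weight (D := D) (K := K) (A := A) (hnorm A K hKn)
      (hcopS A K le_rfl le_rfl) (Or.inr hKs) χ (by
        intro a ha
        obtain ⟨y, hy, s, hs, hys⟩ := (mem_sup_of_le_normalizer hstN).1 (h1 ha)
        exact ⟨y, hy, by rw [← hys, inv_mul_cancel_left]; exact hs⟩)
    have h2 := hA1 _ _ (hne0 y v hv0) (htw y χ v hv) hyA (y * z * y⁻¹) (hDn.conj_mem z hz y)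
    rw [tw_apply] at h2
    apply hz1
    rw [← h2]
    congr 1
    group
  have hKst : ∀ (χ : Γ → k) (v : W), v ≠ 0 → IsWt H D χ v → (∃ z ∈ D, χ z ≠ 1) →
      c ∈ stab D χ → K ≤ stab D χ := by
    intro χ v hv0 hv hnt hc
    have hxc : ∀ x ∈ K, x⁻¹ * c * x ∈ stab D χ := by
      intro x hx
      obtain ⟨b, hbA, hb1, hbS⟩ := hexc _ _ (hne0 x v hv0) (htw x χ v hv)
      rw [hmst] at hbS
      by_cases hbc : b ∈ zpowers c
      · obtain ⟨n, hn⟩ := mem_zpowers_iff.1 (hgenc b hbc hb1)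
        have h1 : x⁻¹ * c * x = (x⁻¹ * b * x) ^ n := by
          have : x⁻¹ * b * x = x⁻¹ * b * (x⁻¹)⁻¹ := by rw [inv_inv]
          rw [this, conj_zpow, hn, inv_inv]
        rw [h1]
        exact zpow_mem hbS n
      · exfalso
        refine hglaub χ v hv0 hv hnt (mem_sup_right hc) ⟨b, hbA, hbc, ?_⟩
        have h1 : b = (b * x * b⁻¹)⁻¹ * x * (x⁻¹ * b * x) * (x⁻¹ * x * b⁻¹ * b) := by group
        have h2 : b = x * (x⁻¹ * b * x) * x⁻¹ := by group
        rw [h2]
        exact mul_mem (mul_mem (mem_sup_left hx) (mem_sup_right hbS)) (mem_sup_left (inv_mem hx))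
    intro x hx
    have hDc : zpowers c ≤ normalizer ((K ⊓ stab D χ : Subgroup Γ) : Set Γ) := by
      rw [zpowers_le, mem_normalizer_iff]
      intro y
      constructor
      · intro hy
        exact mem_inf.2 ⟨hKn.conj_mem y hy.1 c, mul_mem (mul_mem hc hy.2) (inv_mem hc)⟩
      · intro hy
        have h1 : y = c⁻¹ * (c * y * c⁻¹) * c⁻¹⁻¹ := by group
        refine mem_inf.2 ⟨?_, ?_⟩
        · rw [h1]; exact hKn.conj_mem _ hy.1 _
        · rw [h1]
          exact mul_mem (mul_mem (inv_mem hc) hy.2) (inv_mem (inv_mem hc))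
    have hcx : ∀ n : ℕ, x⁻¹ * (c ^ n * x * (c ^ n)⁻¹) ∈ K ⊓ stab D χ := by
      intro n
      refine mem_inf.2 ⟨mul_mem (inv_mem hx) (hKn.conj_mem x hx _), ?_⟩
      have h1 : x⁻¹ * (c ^ n * x * (c ^ n)⁻¹) = (x⁻¹ * c * x) ^ n * (c ^ n)⁻¹ := by
        have : x⁻¹ * c * x = x⁻¹ * c * (x⁻¹)⁻¹ := by rw [inv_inv]
        rw [this, conj_pow, inv_inv]; group
      rw [h1]
      exact mul_mem (pow_mem (hxc x hx) n) (inv_mem (pow_mem hc n))
    obtain ⟨d, hd, hxd⟩ := exists_mul_mem_centralizer hDc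
      (hcopS _ _ (zpowers_le.2 hcA) inf_le_left) (Or.inr (hsolvle _ inf_le_left)) x (by
        intro g hg
        rw [← mem_powers_iff_mem_zpowers, Submonoid.mem_powers_iff] at hg
        obtain ⟨n, rfl⟩ := hg
        exact hcx n)
    have h1 : x * d ∈ E := ⟨mul_mem hx hd.1, mem_centralizer_singleton_iff.2
      (mem_centralizer_iff.1 hxd c (mem_zpowers c)).symm⟩
    have h2 := hE2 χ v hv0 hv _ h1 hc
    have h3 := mul_mem h2 (inv_mem hd.2)
    rwa [mul_inv_cancel_right] at h3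
  have hnt : ∀ χ : Γ → k, c ∉ stab D χ → ∃ z ∈ D, χ z ≠ 1 := by
    intro χ hc
    by_contra hcon
    push Not at hcon
    apply hc
    refine ⟨hnorm ⊤ D hDn trivial, fun x hx => ?_⟩
    have h1 := hDn.conj_mem x hx c⁻¹
    rw [inv_inv] at h1
    rw [hcon x hx, hcon _ h1]
  -- the remaining weights
  have hiii : ∀ (χ : Γ → k) (v : W), v ≠ 0 → IsWt H D χ v → c ∉ stab D χ → ∀ a ∈ A,
      a ∉ zpowers c → a ∈ stab D χ → ∀ x ∈ K, c ∉ stab D (tw x χ) ∧ a ∈ stab D (tw x χ) := by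
    intro χ v hv0 hv hc a haA hac ha x hx
    obtain ⟨z, hz, hz1⟩ := hnt χ hc
    have hc' : c ∉ stab D (tw x χ) := by
      intro h
      have h1 := hKst _ _ (hne0 x v hv0) (htw x χ v hv) ⟨x * z * x⁻¹, hDn.conj_mem z hz x, by
        rw [tw_apply]
        intro h2
        apply hz1
        rw [← h2]
        congr 1
        group⟩ h hx
      rw [hmst] at h1 h
      rw [inv_mul_cancel, one_mul] at h1
      apply hc
      have h2 := mul_mem (mul_mem h1 h) (inv_mem h1)
      have h3 : x * (x⁻¹ * c * x) * x⁻¹ = c := by group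
      rwa [h3] at h2
    refine ⟨hc', ?_⟩
    obtain ⟨b, hbA, hb1, hbS⟩ := hexc _ _ (hne0 x v hv0) (htw x χ v hv)
    by_cases hba : b = a
    · rw [← hba]; exact hbS
    exfalso
    have hbc : b ∉ zpowers c := fun h => hc' ((zpowers_le.2 hbS) (hgenc b h hb1))
    have h1 := hAind b hbA a haA hbc hac
    have h2 : b * a ≠ 1 := by
      intro h
      apply hba
      have ha2 := (hAinv a haA hac).1
      rw [sq] at ha2
      exact mul_right_cancel (h.trans ha2.symm)
    have h3 : b ∈ K ⊔ stab D χ := by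
      rw [hmst] at hbS
      have h4 : b = x * (x⁻¹ * b * x) * x⁻¹ := by group
      rw [h4]
      exact mul_mem (mul_mem (mem_sup_left hx) (mem_sup_right hbS)) (mem_sup_left (inv_mem hx))
    have h4 : b * a ∈ K ⊔ stab D χ := mul_mem h3 (mem_sup_right ha)
    exact hglaub χ v hv0 hv ⟨z, hz, hz1⟩ ((zpowers_le.2 h4) (hgenc _ h1 h2))
      ⟨a, haA, hac, mem_sup_right ha⟩
  have hneg : ∀ (χ : Γ → k) (v : W), v ≠ 0 → IsWt H D χ v → c ∉ stab D χ → ∀ a ∈ A,
      a ∉ zpowers c → a ∈ stab D χ → H a v = -v := by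
    intro χ v hv0 hv hc a haA hac ha
    have h1 := sum_stab_eq_zero H (hnorm A D hDn) hv (hsum v)
    have ha1 : a ≠ 1 := by rintro rfl; exact hac (one_mem _)
    have ha2 := (hAinv a haA hac).1
    have h2 : (Finset.univ.filter fun a' : A => (a' : Γ) ∈ stab D χ) = {1, ⟨a, haA⟩} := by
      ext b
      simp only [Finset.mem_filter, Finset.mem_univ, true_and, Finset.mem_singleton,
        Finset.mem_insert]
      constructor
      · intro h
        by_cases hbc : (b : Γ) ∈ zpowers c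
        · left
          by_contra hb1
          exact hc ((zpowers_le.2 h) (hgenc _ hbc (fun h4 => hb1 (Subtype.ext h4))))
        · right
          have h3 := hAind b b.2 a haA hbc hac
          have h4 : (b : Γ) * a = 1 := by
            by_contra h5
            exact hc ((zpowers_le.2 (mul_mem h ha)) (hgenc _ h3 h5))
          apply Subtype.ext
          rw [← ha2, sq] at h4
          exact mul_right_cancel h4
      · rintro (rfl | rfl)
        · exact one_mem _
        · exact ha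
    rw [h2, Finset.sum_pair (by
      intro h
      exact ha1 (congrArg (Subtype.val : A → Γ) h).symm)] at h1
    have h3 : H ((1 : A) : Γ) v = v := by
      rw [OneMemClass.coe_one, map_one]; rfl
    rw [h3] at h1
    exact (neg_eq_of_add_eq_zero_right h1).symm
  have hDK' : (_root_.commutator K).map K.subtype = D := by
    rw [Subgroup.map_subtype_commutator]
  -- such weights are trivial
  have hNa : ∀ a ∈ A, a ∉ zpowers c → ∀ (χ : Γ → k) (v : W), v ≠ 0 → IsWt H D χ v →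
      c ∉ stab D χ → a ∈ stab D χ → ∀ x ∈ D, H x v = v := by
    intro a haA hac
    obtain ⟨ha2, hac'⟩ := hAinv a haA hac
    have haa : a * a = 1 := by rw [← sq, ha2]
    have hai : a⁻¹ = a := inv_eq_of_mul_eq_one_left haa
    let N : Subgroup K :=
      { carrier := {x | ∀ (χ : Γ → k) (v : W), v ≠ 0 → IsWt H D χ v → c ∉ stab D χ →
          a ∈ stab D χ → H (x : Γ) v = v}
        one_mem' := by
          intro χ v _ _ _ _
          rw [OneMemClass.coe_one, map_one]; rfl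
        mul_mem' := by
          intro x y hx hy χ v h1 h2 h3 h4
          rw [Subgroup.coe_mul, map_mul, Module.End.mul_apply, hy χ v h1 h2 h3 h4,
            hx χ v h1 h2 h3 h4]
        inv_mem' := by
          intro x hx χ v h1 h2 h3 h4
          have h5 := hx χ v h1 h2 h3 h4
          nth_rewrite 1 [← h5]
          rw [← Module.End.mul_apply, ← map_mul, Subgroup.coe_inv, inv_mul_cancel, map_one]
          rfl }
    have hNn : N.Normal := by
      refine ⟨fun x hx g => ?_⟩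
      intro χ v h1 h2 h3 h4
      obtain ⟨h5, h6⟩ := hiii χ v h1 h2 h3 a haA hac h4 _ (inv_mem g.2)
      have h7 := hx _ _ (hne0 _ v h1) (htw (g : Γ)⁻¹ χ v h2) h5 h6
      have h8 : ((g * x * g⁻¹ : K) : Γ) = (g : Γ) * x * (g : Γ)⁻¹ := by simp
      rw [h8, map_mul, map_mul, Module.End.mul_apply, Module.End.mul_apply, h7,
        ← Module.End.mul_apply, ← map_mul, mul_inv_cancel, map_one]
      rfl
    have hcj : ∀ (g : Γ) (x : K), ((MulAut.conjNormal g x : K) : Γ) = g * x * g⁻¹ :=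
      fun g x => MulAut.conjNormal_apply g x
    have hmain := ThreeAct.commutator_le_of_three (K := K) (MulAut.conjNormal c)
      (MulAut.conjNormal a) N hcop (by
        intro x
        apply Subtype.ext
        rw [hcj, hcj, hcj]
        have h1 : c * (c * (c * (x : Γ) * c⁻¹) * c⁻¹) * c⁻¹ = c ^ 3 * x * (c ^ 3)⁻¹ := by
          rw [pow_succ, pow_two]; simp only [mul_inv_rev, mul_assoc]
        rw [h1, hc3]; simp) (by
        intro x
        apply Subtype.ext
        rw [hcj, hcj, hcj, hcj, hcj]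
        have h2 : c⁻¹ = c * c := by
          rw [inv_eq_iff_mul_eq_one, ← hc3, pow_succ, pow_two, mul_assoc]
        have h1 : a * c = c * c * a := by rw [← h2, ← hac']; group
        have h3 : a * (c * (x : Γ) * c⁻¹) * a⁻¹ = (a * c) * x * (a * c)⁻¹ := by group
        rw [h3, h1]
        simp only [mul_inv_rev, mul_assoc]) (by
        intro x
        apply Subtype.ext
        rw [hcj, hcj]
        have h3 : a * (a * (x : Γ) * a⁻¹) * a⁻¹ = (a * a) * x * (a * a)⁻¹ := by group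
        rw [h3, haa]; simp) (by
        intro x χ v hv0 hv hc ha
        obtain ⟨h5, h6⟩ := hiii χ v hv0 hv hc a haA hac ha _ x.2
        have h7 := hneg χ v hv0 hv hc a haA hac ha
        have h8 := hneg _ _ (hne0 _ v hv0) (htw (x : Γ) χ v hv) h5 a haA hac h6
        have h9 : ((x⁻¹ * MulAut.conjNormal a x : K) : Γ) = (x : Γ)⁻¹ * (a * x * a) := by
          rw [Subgroup.coe_mul, hcj, hai, Subgroup.coe_inv]
        rw [h9, map_mul, map_mul, map_mul, Module.End.mul_apply, Module.End.mul_apply,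
          Module.End.mul_apply, h7, map_neg, map_neg, h8, neg_neg, ← Module.End.mul_apply,
          ← map_mul, inv_mul_cancel, map_one]
        rfl) (by
        intro M hMn hMc hMa x hxc hxa
        set M' : Subgroup Γ := M.map K.subtype with hM'
        have hmem : ∀ y : K, (y : Γ) ∈ M' ↔ y ∈ M := by
          intro y
          constructor
          · rintro ⟨z, hz, hzy⟩
            have : z = y := Subtype.ext hzy
            rwa [← this]
          · intro hy
            exact ⟨y, hy, rfl⟩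
        have hM'K : M' ≤ K := by
          rintro _ ⟨z, _, rfl⟩
          exact z.2
        have hnormM : ∀ g : Γ, (∀ z ∈ M, MulAut.conjNormal g z ∈ M) →
            g ∈ normalizer (M' : Set Γ) := by
          intro g hg
          have h1 : MulAut.conj g • M' ≤ M' := by
            intro y hy
            rw [mem_conj_smul] at hy
            have h2 : (⟨g⁻¹ * y * g, hM'K hy⟩ : K) ∈ M := (hmem _).1 hy
            have h3 := (hmem _).2 (hg _ h2)
            rw [hcj] at h3
            have h4 : g * (g⁻¹ * y * g) * g⁻¹ = y := by group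
            simpa [h4] using h3
          rw [mem_normalizer_iff_conj_smul]
          exact eq_of_le_of_card_ge h1 (by rw [card_conj_smul])
        let S : Subgroup Γ :=
          { carrier := {g | g ∈ normalizer (M' : Set Γ) ∧ (x : Γ)⁻¹ * (g * x * g⁻¹) ∈ M'}
            one_mem' := ⟨one_mem _, by
              have : (x : Γ)⁻¹ * (1 * x * 1⁻¹) = 1 := by group
              rw [this]; exact one_mem _⟩
            mul_mem' := by
              rintro g h ⟨hg, hg'⟩ ⟨hh, hh'⟩
              refine ⟨mul_mem hg hh, ?_⟩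
              have h1 := (mem_normalizer_iff.mp hg _).mp hh'
              have h2 : (x : Γ)⁻¹ * (g * h * x * (g * h)⁻¹) = ((x : Γ)⁻¹ * (g * x * g⁻¹)) *
                (g * ((x : Γ)⁻¹ * (h * x * h⁻¹)) * g⁻¹) := by group
              rw [h2]
              exact mul_mem hg' h1
            inv_mem' := by
              rintro g ⟨hg, hg'⟩
              refine ⟨inv_mem hg, ?_⟩
              have h1 := (mem_normalizer_iff.mp (inv_mem hg) _).mp (inv_mem hg')
              have h2 : (x : Γ)⁻¹ * (g⁻¹ * x * g⁻¹⁻¹) =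
                g⁻¹ * ((x : Γ)⁻¹ * (g * x * g⁻¹))⁻¹ * g⁻¹⁻¹ := by group
              rw [h2]
              exact h1 }
        have hAS : A ≤ S := by
          apply hsupA
          · refine ⟨hnormM c hMc, ?_⟩
            have h1 := (hmem _).2 hxc
            rwa [Subgroup.coe_mul, hcj, Subgroup.coe_inv] at h1
          · refine ⟨a, haA, hac, hnormM a hMa, ?_⟩
            have h1 := (hmem _).2 hxa
            rwa [Subgroup.coe_mul, hcj, Subgroup.coe_inv] at h1
        obtain ⟨d, hd, hxd⟩ := exists_mul_mem_centralizer (A := A) (D := M')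
          (fun g hg => (hAS hg).1) (hcopS A M' le_rfl hM'K) (Or.inr (hsolvle _ hM'K)) (x : Γ)
          (fun g hg => (hAS hg).2)
        have h1 : (x : Γ) * d ∈ K ⊓ centralizer (A : Set Γ) := ⟨mul_mem x.2 (hM'K hd), hxd⟩
        rw [hfix, mem_bot] at h1
        rw [← hmem, eq_inv_of_mul_eq_one_left h1]
        exact inv_mem hd) (by
        intro x hx y hy
        apply Subtype.ext
        exact hab x (hDK' ▸ mem_map_of_mem K.subtype hx) y (hDK' ▸ mem_map_of_mem K.subtype hy))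
    intro χ v hv0 hv hc ha x hx
    rw [← hDK'] at hx
    obtain ⟨y, hy, rfl⟩ := hx
    exact hmain hy χ v hv0 hv hc ha
  have hallc : ∀ (χ : Γ → k) (v : W), v ≠ 0 → IsWt H D χ v → c ∈ stab D χ := by
    intro χ v hv0 hv
    by_contra hc
    obtain ⟨b, hbA, hb1, hbS⟩ := hexc χ v hv0 hv
    have hbc : b ∉ zpowers c := fun h => hc ((zpowers_le.2 hbS) (hgenc b h hb1))
    obtain ⟨z, hz, hz1⟩ := hnt χ hc
    have h1 := hNa b hbA hbc χ v hv0 hv hc hbS z hz
    rw [hv z hz] at h1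
    apply hz1
    have h2 : (χ z - 1) • v = 0 := by rw [sub_smul, h1, one_smul, sub_self]
    rcases smul_eq_zero.1 h2 with h3 | h3
    · exact sub_eq_zero.1 h3
    · exact absurd h3 hv0
  have hKall : ∀ (χ : Γ → k) (v : W), v ≠ 0 → IsWt H D χ v → K ≤ stab D χ := by
    intro χ v hv0 hv
    by_cases hz : ∃ z ∈ D, χ z ≠ 1
    · exact hKst χ v hv0 hv hz (hallc χ v hv0 hv)
    · push Not at hz
      intro g hg
      refine ⟨hnorm ⊤ D hDn trivial, fun x hx => ?_⟩
      have h1 := hDn.conj_mem x hx g⁻¹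
      rw [inv_inv] at h1
      rw [hz x hx, hz _ h1]
  have hDcomm : ∀ x ∈ D, ∀ y ∈ D, ∀ u ∈ (⊤ : Submodule k W), H x (H y u) = H y (H x u) := by
    intro x hx y hy u _
    rw [← Module.End.mul_apply, ← Module.End.mul_apply, ← map_mul, ← map_mul, hab x hx y hy]
  have hDc : ∀ x ∈ D, ∀ g ∈ K, Commute x g := by
    intro x hx g hg
    have h1 : ⁅x, g⁆ ∈ D := commutator_mono hDK le_rfl (commutator_mem_commutator hx hg)
    have h2 : ⁅x, g⁆ = 1 := by
      apply hinj _ (hDK h1)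
      ext w
      refine eq_on_of_weights H ⊤ D (fun _ _ _ _ => trivial) hDcomm (Nat.card D) hk
        (hpowcard D) (H ⁅x, g⁆) ?_ w trivial
      intro v _ χ hv0 hv
      have h3 := commutator_le_kerWt hv hv0 (hKall χ v hv0 hv)
        (commutator_mem_commutator hx hg)
      rw [hv _ h1, h3.2, one_smul]
    exact (commutatorElement_eq_one_iff_mul_comm.1 h2)
  by_contra hDne
  obtain ⟨z₁, hz₁, hz₁1⟩ : ∃ z ∈ D, z ≠ 1 := by
    by_contra hcon
    push Not at hcon
    apply hDne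
    rw [eq_bot_iff]
    intro z hz
    exact mem_bot.2 (hcon z hz)
  obtain ⟨v, χ, hv0, hv, z₀, hz₀, hχz₀⟩ : ∃ (v : W) (χ : Γ → k), v ≠ 0 ∧ IsWt H D χ v ∧
      ∃ z ∈ D, χ z ≠ 1 := by
    by_contra hcon
    push Not at hcon
    apply hz₁1
    apply hinj z₁ (hDK hz₁)
    ext w
    refine eq_on_of_weights H ⊤ D (fun _ _ _ _ => trivial) hDcomm (Nat.card D) hk
      (hpowcard D) (H z₁) ?_ w trivial
    intro v _ χ hv0 hv
    rw [hv z₁ hz₁, hcon v χ hv0 hv z₁ hz₁, one_smul]
  have hcS := hallc χ v hv0 hv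
  have hχc : ∀ y ∈ D, χ (c * y * c⁻¹) = χ y := by
    intro y hy
    have := (inv_mem hcS).2 y hy
    rwa [inv_inv] at this
  have hVK : ∀ g ∈ K, ∀ w, IsWt H D χ w → IsWt H D χ (H g w) := by
    intro g hg w hw y hy
    rw [← Module.End.mul_apply, ← map_mul, (hDc y hy g hg).eq, map_mul, Module.End.mul_apply,
      hw y hy, map_smul]
  have hVc : ∀ w, IsWt H D χ w → IsWt H D χ (H c w) := by
    intro w hw y hy
    have h1 : y * c = c * (c⁻¹ * y * c) := by group
    have h2 : c⁻¹ * y * c ∈ D := conj_mem_of_normalizer (hnorm ⊤ D hDn trivial) hy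
    rw [← Module.End.mul_apply, ← map_mul, h1, map_mul, Module.End.mul_apply, hw _ h2, map_smul,
      hcS.2 y hy]
  have hco : orderOf c = 3 := orderOf_eq_prime hc3 hc1
  have hsum3 : ∀ w, IsWt H D χ w → w + H c w + H c (H c w) = 0 := by
    intro w hw
    have h0 : ∑ i ∈ Finset.range 3, H (c ^ i) w = 0 := by
      rw [← sum_stab_eq_zero H (hnorm A D hDn) hw (hsum w)]
      refine Finset.sum_bij (fun i _ => (⟨c ^ i, pow_mem hcA i⟩ : A)) ?_ ?_ ?_ ?_
      · intro i _
        rw [Finset.mem_filter]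
        exact ⟨Finset.mem_univ _, pow_mem hcS i⟩
      · intro i hi j hj hij
        rw [Finset.mem_range] at hi hj
        have h1 : c ^ i = c ^ j := congrArg (Subtype.val : A → Γ) hij
        rw [← hco] at hi hj
        exact pow_injOn_Iio_orderOf hi hj h1
      · intro b hb
        rw [Finset.mem_filter] at hb
        have h1 : (b : Γ) ∈ zpowers c := by
          by_contra hbc
          exact hχz₀ (hA1 χ v hv0 hv (hsupA _ hcS ⟨b, b.2, hbc, hb.2⟩) z₀ hz₀)
        rw [← mem_powers_iff_mem_zpowers, mem_powers_iff_mem_range_orderOf, Finset.mem_image] at h1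
        obtain ⟨i, hi, hic⟩ := h1
        rw [hco] at hi
        exact ⟨i, hi, Subtype.ext hic⟩
      · intro i _
        rfl
    rw [Finset.sum_range_succ, Finset.sum_range_succ, Finset.sum_range_succ, Finset.sum_range_zero,
      pow_zero, pow_one, pow_two, map_mul, Module.End.mul_apply, map_one, Module.End.one_apply,
      zero_add] at h0
    exact h0
  -- conjugates
  have hcx : ∀ (x : Γ) (w : W), H c (H x w) = H (c * x * c⁻¹) (H c w) := by
    intro x w
    rw [← Module.End.mul_apply, ← Module.End.mul_apply, ← map_mul, ← map_mul]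
    congr 2
    group
  have hccc : ∀ x : Γ, c * (c * (c * x * c⁻¹) * c⁻¹) * c⁻¹ = x := by
    intro x
    have h1 : c * (c * (c * x * c⁻¹) * c⁻¹) * c⁻¹ = c ^ 3 * x * (c ^ 3)⁻¹ := by
      rw [pow_succ, pow_two]; simp only [mul_inv_rev, mul_assoc]
    rw [h1, hc3]; simp
  have hKc : ∀ x ∈ K, c * x * c⁻¹ ∈ K := fun x hx => hKn.conj_mem x hx c
  have rel : ∀ x ∈ K, ∀ w, IsWt H D χ w → H (c * x * c⁻¹) (H c w) -
      H (c * (c * x * c⁻¹) * c⁻¹) (H c w) = H (c * (c * x * c⁻¹) * c⁻¹) w - H x w := by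
    intro x hx w hw
    have h1 := hsum3 (H x w) (hVK x hx w hw)
    rw [hcx, hcx] at h1
    have h2 : H c (H c w) = -(w + H c w) := by
      have := hsum3 w hw
      exact (neg_eq_of_add_eq_zero_right this).symm
    rw [h2, map_neg, map_add] at h1
    have h3 : H (c * x * c⁻¹) (H c w) - H (c * (c * x * c⁻¹) * c⁻¹) (H c w) -
      (H (c * (c * x * c⁻¹) * c⁻¹) w - H x w) = 0 := by
      rw [← h1]; abel
    exact sub_eq_zero.1 h3
  have ident : ∀ x ∈ K, ∀ w, IsWt H D χ w →
      H x (H x w) + H (c * (c * x * c⁻¹) * c⁻¹) (H (c * x * c⁻¹) w) +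
        H (c * x * c⁻¹) (H (c * (c * x * c⁻¹) * c⁻¹) w) =
      H x (H (c * x * c⁻¹) w) + H (c * x * c⁻¹) (H x w) +
        H (c * (c * x * c⁻¹) * c⁻¹) (H (c * (c * x * c⁻¹) * c⁻¹) w) := by
    intro x hx w hw
    have h1 := rel x hx (H x w) (hVK x hx w hw)
    have h2 := rel x hx (H (c * x * c⁻¹) w) (hVK _ (hKc x hx) w hw)
    have h3 := rel x hx w hw
    have h4 := congrArg (H (c * x * c⁻¹)) h3
    have h5 := congrArg (H (c * (c * x * c⁻¹) * c⁻¹)) h3
    rw [hcx] at h1 h2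
    simp only [map_sub] at h4 h5
    set x1 := c * x * c⁻¹
    set x2 := c * x1 * c⁻¹
    have h6 : (H x (H x w) + H x2 (H x1 w) + H x1 (H x2 w)) -
        (H x (H x1 w) + H x1 (H x w) + H x2 (H x2 w)) =
        ((H x2 (H x1 w) - H x (H x1 w)) - (H x2 (H x w) - H x (H x w))) +
        (H x1 (H x2 w) - H x1 (H x w)) - (H x2 (H x2 w) - H x2 (H x w)) := by abel
    rw [← sub_eq_zero, h6, ← h1, ← h2, ← h4, ← h5]
    abel
  have hχpow : ∀ y ∈ D, ∀ n : ℕ, χ (y ^ n) = χ y ^ n := by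
    intro y hy n
    induction n with
    | zero => rw [pow_zero, pow_zero, isWt_one hv hv0]
    | succ n ih => rw [pow_succ, isWt_mul hv hv0 (pow_mem hy n) hy, ih, pow_succ]
  have hχcard : ∀ y ∈ D, χ y ^ Nat.card D = 1 := by
    intro y hy
    rw [← hχpow y hy, hpowcard D y hy, isWt_one hv hv0]
  have hcopD : (Nat.card D).Coprime 6 := Nat.Coprime.coprime_dvd_left (card_dvd_of_le hDK) hcop
  have hcm : ∀ g ∈ K, ∀ h ∈ K, ⁅g, h⁆ ∈ D := fun g hg h hh => commutator_mem_commutator hg hh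
  have hswap : ∀ g ∈ K, ∀ h ∈ K, ∀ w, IsWt H D χ w →
      H g (H h w) = χ ⁅g, h⁆ • H h (H g w) := by
    intro g hg h hh w hw
    have h1 := hVK h hh _ (hVK g hg w hw) _ (hcm g hg h hh)
    rw [← h1, ← Module.End.mul_apply, ← Module.End.mul_apply, ← Module.End.mul_apply, ← map_mul,
      ← map_mul, ← map_mul]
    congr 2
    rw [commutatorElement_def]; group
  have hbconj : ∀ g ∈ K, ∀ h ∈ K, χ ⁅c * g * c⁻¹, c * h * c⁻¹⁆ = χ ⁅g, h⁆ := by
    intro g hg h hh
    rw [← hχc _ (hcm g hg h hh)]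
    congr 1
    simp only [commutatorElement_def]; group
  have hb1 : ∀ x ∈ K, χ ⁅x, c * x * c⁻¹⁆ = 1 := by
    intro x hx
    set b := χ ⁅x, c * x * c⁻¹⁆ with hb
    have hx1 := hKc x hx
    have hx2 := hKc _ hx1
    have hid := ident x hx
    have hb12 : χ ⁅c * x * c⁻¹, c * (c * x * c⁻¹) * c⁻¹⁆ = b := hbconj x hx _ hx1
    have hb20 : χ ⁅c * (c * x * c⁻¹) * c⁻¹, x⁆ = b := by
      rw [← hb12, ← hbconj (c * x * c⁻¹) hx1 _ hx2, hccc]
    have hbn : b ^ Nat.card D = 1 := hχcard _ (hcm x hx _ hx1)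
    have hb0 : b ≠ 0 := by
      intro h
      rw [h, zero_pow Nat.card_pos.ne'] at hbn
      exact zero_ne_one hbn
    have c01 := hswap x hx _ hx1
    have c20 := hswap _ hx2 x hx
    rw [← hb] at c01
    rw [hb20] at c20
    set x1 := c * x * c⁻¹ with hx1d
    set x2 := c * x1 * c⁻¹ with hx2d
    -- `(b² - 1) (X₁X₀X₀ - X₀X₂X₂) = 0`
    have key : ∀ w, IsWt H D χ w → (b ^ 2 - 1) • (H x1 (H x (H x w)) - H x (H x2 (H x2 w))) = 0 := by
      intro w hw
      have e1 := hid (H x w) (hVK x hx w hw)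
      have e2 := congrArg (H x) (hid w hw)
      simp only [map_add] at e2
      have f1 : H x (H x2 (H x1 w)) = H x2 (H x1 (H x w)) := by
        have g1 := c20 (H x1 w) (hVK _ hx1 w hw)
        rw [c01 w hw, map_smul] at g1
        exact (smul_right_injective W hb0 g1).symm
      have f2 : H x (H x1 (H x2 w)) = H x1 (H x2 (H x w)) := by
        rw [c01 _ (hVK _ hx2 w hw), c20 w hw, map_smul]
      have f3 : H x (H x (H x1 w)) = b ^ 2 • H x1 (H x (H x w)) := by
        rw [c01 w hw, map_smul, c01 _ (hVK x hx w hw), smul_smul, ← sq]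
      have f4 : H x2 (H x2 (H x w)) = b ^ 2 • H x (H x2 (H x2 w)) := by
        rw [c20 w hw, map_smul, c20 _ (hVK _ hx2 w hw), smul_smul, ← sq]
      rw [f1, f2, f3] at e2
      rw [f4] at e1
      have e3 : H x1 (H x (H x w)) + b ^ 2 • H x (H x2 (H x2 w)) =
          b ^ 2 • H x1 (H x (H x w)) + H x (H x2 (H x2 w)) := by
        have e4 := e1.symm.trans (e2)
        have e5 : H x1 (H x (H x w)) + b ^ 2 • H x (H x2 (H x2 w)) -
          (b ^ 2 • H x1 (H x (H x w)) + H x (H x2 (H x2 w))) =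
          (H x (H x1 (H x w)) + H x1 (H x (H x w)) + b ^ 2 • H x (H x2 (H x2 w))) -
          (b ^ 2 • H x1 (H x (H x w)) + H x (H x1 (H x w)) + H x (H x2 (H x2 w))) := by abel
        rw [← sub_eq_zero, e5, e4, sub_self]
      have e6 : (b ^ 2 - 1) • (H x1 (H x (H x w)) - H x (H x2 (H x2 w))) =
          (b ^ 2 • H x1 (H x (H x w)) + H x (H x2 (H x2 w))) -
          (H x1 (H x (H x w)) + b ^ 2 • H x (H x2 (H x2 w))) := by
        rw [sub_smul, one_smul, smul_sub]; abel
      rw [e6, e3, sub_self]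
    by_cases hb2 : b ^ 2 = 1
    · have h1 := pow_gcd_eq_one.mpr ⟨hbn, hb2⟩
      rwa [(Nat.Coprime.coprime_dvd_right (by norm_num : 2 ∣ 6) hcopD).gcd_eq_one, pow_one] at h1
    · have hb2' : b ^ 2 - 1 ≠ 0 := sub_ne_zero.2 hb2
      have key' : ∀ w, IsWt H D χ w → H x1 (H x (H x w)) = H x (H x2 (H x2 w)) := by
        intro w hw
        rcases smul_eq_zero.1 (key w hw) with h | h
        · exact absurd h hb2'
        · exact sub_eq_zero.1 h
      have e1 := key' (H x v) (hVK x hx v hv)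
      have e2 := congrArg (H x) (key' v hv)
      have f4 : H x2 (H x2 (H x v)) = b ^ 2 • H x (H x2 (H x2 v)) := by
        rw [c20 v hv, map_smul, c20 _ (hVK _ hx2 v hv), smul_smul, ← sq]
      rw [c01 _ (hVK x hx _ (hVK x hx v hv)), e1, f4, map_smul, smul_smul, ← pow_succ'] at e2
      have e3 : (b ^ 3 - 1) • H x (H x (H x2 (H x2 v))) = 0 := by
        rw [sub_smul, e2, one_smul, sub_self]
      rcases smul_eq_zero.1 e3 with h | h
      · have hb3 : b ^ 3 = 1 := sub_eq_zero.1 h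
        have h1 := pow_gcd_eq_one.mpr ⟨hbn, hb3⟩
        rwa [(Nat.Coprime.coprime_dvd_right (by norm_num : 3 ∣ 6) hcopD).gcd_eq_one, pow_one] at h1
      · exact absurd h (hne0 x _ (hne0 x _ (hne0 x2 _ (hne0 x2 _ hv0))))
  -- bimultiplicativity
  have hbl : ∀ g ∈ K, ∀ g' ∈ K, ∀ h ∈ K, χ ⁅g * g', h⁆ = χ ⁅g, h⁆ * χ ⁅g', h⁆ := by
    intro g hg g' hg' h hh
    have h1 : ⁅g * g', h⁆ = g * ⁅g', h⁆ * g⁻¹ * ⁅g, h⁆ := by
      simp only [commutatorElement_def]; group
    have h2 := (hDc _ (hcm g' hg' h hh) g hg).eq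
    rw [h1, ← h2, mul_inv_cancel_right, isWt_mul hv hv0 (hcm g' hg' h hh) (hcm g hg h hh), mul_comm]
  have hbs : ∀ g ∈ K, ∀ h ∈ K, χ ⁅g, h⁆ * χ ⁅h, g⁆ = 1 := by
    intro g hg h hh
    rw [← commutatorElement_inv g h]
    exact isWt_inv hv hv0 (hcm g hg h hh)
  have hbr : ∀ g ∈ K, ∀ h ∈ K, ∀ h' ∈ K, χ ⁅g, h * h'⁆ = χ ⁅g, h⁆ * χ ⁅g, h'⁆ := by
    intro g hg h hh h' hh'
    have h1 : ⁅g, h * h'⁆ = ⁅g, h⁆ * (h * ⁅g, h'⁆ * h⁻¹) := by
      simp only [commutatorElement_def]; group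
    have h2 := (hDc _ (hcm g hg h' hh') h hh).eq
    rw [h1, ← h2, mul_inv_cancel_right, isWt_mul hv hv0 (hcm g hg h hh) (hcm g hg h' hh')]
  have hbinv : ∀ x ∈ K, ∀ y ∈ K, χ ⁅x, c * y * c⁻¹⁆ = χ ⁅x, y⁆ := by
    have h1 : ∀ x ∈ K, ∀ y ∈ K, χ ⁅x, c * y * c⁻¹⁆ = χ ⁅c * x * c⁻¹, y⁆ := by
      intro x hx y hy
      have e1 := hb1 (x * y) (mul_mem hx hy)
      have e2 : c * (x * y) * c⁻¹ = (c * x * c⁻¹) * (c * y * c⁻¹) := by group
      rw [e2, hbl x hx y hy _ (mul_mem (hKc x hx) (hKc y hy)), hbr x hx _ (hKc x hx) _ (hKc y hy),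
        hbr y hy _ (hKc x hx) _ (hKc y hy), hb1 x hx, hb1 y hy, one_mul, mul_one] at e1
      have e3 := hbs _ (hKc x hx) y hy
      have e4 : χ ⁅y, c * x * c⁻¹⁆ ≠ 0 := by
        intro h
        rw [h, mul_zero] at e1
        exact zero_ne_one e1
      exact mul_right_cancel₀ e4 (e1.trans e3.symm)
    have h2 : ∀ x ∈ K, ∀ y ∈ K, χ ⁅x, c * (c * y * c⁻¹) * c⁻¹⁆ = χ ⁅x, y⁆ := by
      intro x hx y hy
      rw [h1 x hx _ (hKc y hy), hbconj x hx y hy]
    intro x hx y hy
    have h3 := h2 x hx _ (hKc y hy)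
    rw [hccc] at h3
    exact h3.symm
  let R : Subgroup Γ :=
    { carrier := {g | g ∈ K ∧ ∀ x ∈ K, χ ⁅x, g⁆ = 1}
      one_mem' := ⟨one_mem _, fun x _ => by
        rw [commutatorElement_one_right, isWt_one hv hv0]⟩
      mul_mem' := by
        rintro g h ⟨hg, hg'⟩ ⟨hh, hh'⟩
        refine ⟨mul_mem hg hh, fun x hx => ?_⟩
        rw [hbr x hx g hg h hh, hg' x hx, hh' x hx, one_mul]
      inv_mem' := by
        rintro g ⟨hg, hg'⟩
        refine ⟨inv_mem hg, fun x hx => ?_⟩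
        have h1 := hbr x hx g hg _ (inv_mem hg)
        rw [mul_inv_cancel, commutatorElement_one_right, isWt_one hv hv0, hg' x hx, one_mul] at h1
        exact h1.symm }
  have hRK : R ≤ K := fun g hg => hg.1
  have hcn : ∀ n : ℕ, ∀ x ∈ K, ∀ y ∈ K, χ ⁅x, c ^ n * y * (c ^ n)⁻¹⁆ = χ ⁅x, y⁆ := by
    intro n
    induction n with
    | zero => intro x _ y _; simp
    | succ n ih =>
      intro x hx y hy
      have h1 : c ^ (n + 1) * y * (c ^ (n + 1))⁻¹ = c * (c ^ n * y * (c ^ n)⁻¹) * c⁻¹ := by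
        rw [pow_succ']; group
      rw [h1, hbinv x hx _ (hKn.conj_mem y hy _), ih x hx y hy]
  have hcR : zpowers c ≤ normalizer (R : Set Γ) := by
    rw [le_normalizer_iff]
    intro g hg y hy
    rw [← mem_powers_iff_mem_zpowers, Submonoid.mem_powers_iff] at hg
    obtain ⟨n, rfl⟩ := hg
    exact ⟨hKn.conj_mem y hy.1 _, fun x hx => by rw [hcn n x hx y hy.1, hy.2 x hx]⟩
  have hER : ∀ y ∈ K, ∃ d ∈ R, y * d ∈ E := by
    intro y hy
    obtain ⟨d, hd, hyd⟩ := exists_mul_mem_centralizer hcR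
      (hcopS _ R (zpowers_le.2 hcA) hRK) (Or.inr (hsolvle R hRK)) y (by
        intro g hg
        rw [← mem_powers_iff_mem_zpowers, Submonoid.mem_powers_iff] at hg
        obtain ⟨n, rfl⟩ := hg
        refine ⟨mul_mem (inv_mem hy) (hKn.conj_mem y hy _), fun x hx => ?_⟩
        rw [hbr x hx _ (inv_mem hy) _ (hKn.conj_mem y hy _), hcn n x hx y hy,
          ← hbr x hx _ (inv_mem hy) _ hy, inv_mul_cancel, commutatorElement_one_right,
          isWt_one hv hv0])
    exact ⟨d, hd, mul_mem hy (hRK hd), mem_centralizer_singleton_iff.2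
      (mem_centralizer_iff.1 hyd c (mem_zpowers c)).symm⟩
  have hfin : ∀ x ∈ K, ∀ y ∈ K, χ ⁅x, y⁆ = 1 := by
    intro x hx y hy
    obtain ⟨d, hd, hyd⟩ := hER y hy
    obtain ⟨d', hd', hxd⟩ := hER x hx
    have h1 : χ ⁅x * d', y * d⁆ = 1 := by
      rw [commutatorElement_eq_one_iff_mul_comm.2 (hEab _ hxd _ hyd), isWt_one hv hv0]
    have h2 : χ ⁅d', y * d⁆ = 1 := by
      have h3 := hbs d' (hRK hd') (y * d) hyd.1
      rwa [hd'.2 _ hyd.1, mul_one] at h3
    rw [hbl x hx d' (hRK hd') _ hyd.1, h2, mul_one, hbr x hx y hy d (hRK hd), hd.2 x hx,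
      mul_one] at h1
    exact h1
  have hle : D ≤ kerWt hv hv0 :=
    commutator_le.2 fun x hx y hy => ⟨hcm x hx y hy, hfin x hx y hy⟩
  exact hχz₀ (hle hz₀).2

end Main

end Cfsg.Agent.Lib.S3Fpf
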