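import Cfsg.Agent.Lib.HeisExt
import Cfsg.Agent.Lib.S3Fpf
import Cfsg.Agent.Lib.CycNum
import Cfsg.Agent.Lib.PCoreTools

/-!
A cyclic group of order `p^n` acting without fixed points on a module of a `q`-group (helper59).
-/

set_option autoImplicit false

namespace Cfsg.Agent.Lib.ShultGross

open Module Subgroup Cfsg.Agent.Lib.WtGroup Cfsg.Agent.Lib.Weights Cfsg.Agent.Lib.CoprimeAction
  Cfsg.Agent.Lib.CoprimeAction2 Cfsg.Agent.Lib.SubgroupTools Cfsg.Agent.Lib.Ward
open scoped commutatorElement Pointwise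

universe u v w

section Basic

variable {Γ : Type u} [Group Γ]

theorem order_pow_prime {σ : Γ} {p n : ℕ} (hp : p.Prime) (hn : 0 < n) (ho : orderOf σ = p ^ n) :
    (σ ^ p ^ (n - 1)) ^ p = 1 ∧ σ ^ p ^ (n - 1) ≠ 1 := by
  constructor
  · rw [← pow_mul, ← pow_succ, Nat.sub_add_cancel hn, ← ho, pow_orderOf_eq_one]
  · intro h
    have h1 := orderOf_dvd_of_pow_eq_one h
    rw [ho, Nat.pow_dvd_pow_iff_le_right hp.one_lt] at h1
    omega

/-- the subgroup of order `p` of a cyclic `p`-group lies in every nontrivial subgroup -/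
theorem tau_mem {σ : Γ} {p n : ℕ} (hp : p.Prime) (hn : 0 < n) (ho : orderOf σ = p ^ n) {a : Γ}
    (ha : a ∈ zpowers σ) (ha1 : a ≠ 1) : σ ^ p ^ (n - 1) ∈ zpowers a := by
  obtain ⟨hτp, hτ1⟩ := order_pow_prime hp hn ho
  have hfin : IsOfFinOrder σ := by
    rw [← orderOf_pos_iff, ho]; exact pow_pos hp.pos n
  have h1 := (hfin.mem_powers_iff_mem_zpowers).2 ha
  rw [Submonoid.mem_powers_iff] at h1
  obtain ⟨i, rfl⟩ := h1
  have hi : i ≠ 0 := by rintro rfl; exact ha1 (pow_zero _)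
  obtain ⟨e, m, hm, hi'⟩ := Nat.exists_eq_pow_mul_and_not_dvd hi p hp.ne_one
  have hen : e < n := by
    by_contra hle
    apply ha1
    have h2 : σ ^ p ^ e = 1 :=
      orderOf_dvd_iff_pow_eq_one.1 (by rw [ho]; exact pow_dvd_pow p (not_lt.1 hle))
    rw [hi', pow_mul, h2, one_pow]
  have h2 : (σ ^ i) ^ (p ^ (n - 1 - e)) = (σ ^ p ^ (n - 1)) ^ m := by
    rw [← pow_mul, ← pow_mul, hi']
    congr 1
    have : p ^ (n - 1) = p ^ e * p ^ (n - 1 - e) := by
      rw [← pow_add]; congr 1; omega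
    rw [this]; ring
  have h3 : (σ ^ p ^ (n - 1)) ^ m ≠ 1 := by
    intro h
    have h4 := pow_gcd_eq_one.mpr ⟨hτp, h⟩
    rw [(hp.coprime_iff_not_dvd.2 hm).gcd_eq_one, pow_one] at h4
    exact hτ1 h4
  have h5 := gen_of_mem hp hτp (pow_mem (mem_zpowers _) m) h3
  refine (zpowers_le.2 ?_) h5
  rw [← h2]
  exact pow_mem (mem_zpowers _) _

theorem mem_commutator_of_commute {Q : Subgroup Γ} [Finite Q] {τ : Γ} {p : ℕ} (hp : 0 < p)
    (hτp : τ ^ p = 1)
    (hτQ : τ ∈ normalizer (Q : Set Γ)) (hQT : ⁅Q, zpowers τ⁆ = Q) (hcop : p.Coprime (Nat.card Q))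
    {z : Γ} (hz : z ∈ Q) (hzτ : Commute τ z) : z ∈ ⁅Q, Q⁆ := by
  classical
  let c : ℕ → Q →* Q := fun i =>
    (PCoreTools.conjAut (τ ^ i) (pow_mem hτQ i)).toMonoidHom
  have hcoe : ∀ i x, ((c i x : Q) : Γ) = τ ^ i * x * (τ ^ i)⁻¹ := fun i x => rfl
  let N : Q →* Abelianization Q := ∏ i ∈ Finset.range p, Abelianization.of.comp (c i)
  have hN : ∀ x, N x = ∏ i ∈ Finset.range p, Abelianization.of (c i x) := by
    intro x
    simp only [N, MonoidHom.finsetProd_apply, MonoidHom.comp_apply]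
  have hshift : ∀ x : Q, N (c 1 x) = N x := by
    intro x
    have h1 : ∀ i, c i (c 1 x) = c (i + 1) x := by
      intro i
      apply Subtype.ext
      rw [hcoe, hcoe, hcoe, pow_one, pow_succ]
      group
    have h2 : c p x = c 0 x := by
      apply Subtype.ext
      rw [hcoe, hcoe, hτp, pow_zero]
    have h3 := Finset.prod_range_succ (fun i => Abelianization.of (c i x)) p
    have h4 := Finset.prod_range_succ' (fun i => Abelianization.of (c i x)) p
    rw [h3, h2] at h4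
    rw [hN, hN]
    simp only [h1]
    exact (mul_right_cancel h4).symm
  have hNi : ∀ (i : ℕ) (x : Q), N (c i x) = N x := by
    intro i
    induction i with
    | zero =>
      intro x
      congr 1
      apply Subtype.ext
      rw [hcoe, pow_zero]; simp
    | succ i ih =>
      intro x
      rw [← hshift x, ← ih (c 1 x)]
      congr 1
      apply Subtype.ext
      rw [hcoe, hcoe, hcoe, pow_one, pow_succ]
      group
  have hker : ⁅Q, zpowers τ⁆ ≤ N.ker.map Q.subtype := by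
    rw [commutator_le]
    intro x hx t ht
    have hfin : IsOfFinOrder τ := isOfFinOrder_iff_pow_eq_one.2 ⟨p, hp, hτp⟩
    have h1 := (hfin.mem_powers_iff_mem_zpowers).2 ht
    rw [Submonoid.mem_powers_iff] at h1
    obtain ⟨i, rfl⟩ := h1
    refine ⟨⟨x, hx⟩ * (c i ⟨x, hx⟩)⁻¹, ?_, ?_⟩
    · change N _ = 1
      rw [map_mul, map_inv, hNi, mul_inv_cancel]
    · change x * (τ ^ i * x * (τ ^ i)⁻¹)⁻¹ = ⁅x, τ ^ i⁆
      rw [commutatorElement_def]; group
  rw [hQT] at hker
  obtain ⟨z', hz', hz''⟩ := hker hz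
  have hz3 : (z' : Γ) = z := hz''
  have h5 : N z' = Abelianization.of (z' ^ p) := by
    have h6 : ∀ i ∈ Finset.range p, Abelianization.of (c i z') = Abelianization.of z' := by
      intro i _
      congr 1
      apply Subtype.ext
      rw [hcoe, hz3, (hzτ.pow_left i).eq, mul_inv_cancel_right]
    rw [hN, Finset.prod_congr rfl h6, Finset.prod_const, Finset.card_range, map_pow]
  have h6 : z' ^ p ∈ _root_.commutator Q := by
    rw [← Abelianization.ker_of, MonoidHom.mem_ker, ← h5]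
    exact hz'
  have h7 : z' ∈ _root_.commutator Q := S3Fpf.mem_of_pow_mem' hcop.symm pow_card_eq_one' h6
  rw [← Q.map_subtype_commutator, ← hz3]
  exact mem_map_of_mem Q.subtype h7

/-- `Q/Z` has exponent `q` when every proper `A`-invariant subgroup of the `q`-group `Q` is
in `Z` -/
theorem frattini_map {Q A : Subgroup Γ} [Finite Q] (hQne : Q ≠ ⊥)
    (hAQ : A ≤ normalizer (Q : Set Γ)) :
    (frattini Q).map Q.subtype < Q ∧
      A ≤ normalizer (((frattini Q).map Q.subtype : Subgroup Γ) : Set Γ) := by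
  have hnt : Nontrivial Q := (nontrivial_iff_ne_bot Q).2 hQne
  constructor
  · refine lt_of_le_of_ne (map_subtype_le _) ?_
    intro h
    have h3 : (frattini Q).map Q.subtype = (⊤ : Subgroup Q).map Q.subtype := by
      rw [h, ← MonoidHom.range_eq_map, range_subtype]
    have h4 := Subgroup.map_injective Q.subtype_injective h3
    obtain ⟨M, hM⟩ := IsCoatomic.exists_coatom (Subgroup Q)
    have h5 : frattini Q ≤ M := frattini_le_coatom hM
    rw [h4] at h5
    exact hM.1 (top_le_iff.1 h5)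
  · exact hAQ.trans (PCoreTools.normalizer_le_of_characteristic frattini_characteristic)

end Basic

section Heis

variable {Γ : Type u} [Group Γ] [Finite Γ] {k : Type v} {W : Type w}
    [Field k] [IsAlgClosed k] [AddCommGroup W] [Module k W] [FiniteDimensional k W]

theorem heis_step (H : Γ →* Module.End k W) (Q U Z R : Subgroup Γ) [Fintype U] (μ : Γ → k)
    {q : ℕ} (hq : q.Prime) (hQ : IsPGroup q Q) (hUQ : U ≤ normalizer (Q : Set Γ)) (hZQ : Z ≤ Q)
    (hZc : ∀ z ∈ Z, ∀ y ∈ Q, Commute y z) (hDZ : ⁅Q, Q⁆ ≤ Z) (hUμ : U ≤ stab Z μ) {v₀ : W}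
    (hv₀ : v₀ ≠ 0) (hv₀μ : IsWt H Z μ v₀)
    (hsum : ∀ w, IsWt H Z μ w → ∑ u : U, H (u : Γ) w = 0)
    {τ : Γ} (hτU : τ ∈ U) (hτ : ∀ u ∈ U, u ≠ 1 → τ ∈ zpowers u)
    (hCτ : Q ⊓ centralizer {τ} ≤ Z) (hQτ : ⁅Q, zpowers τ⁆ = Q) (hZq : ∀ z ∈ Z, z ^ q = 1)
    (hQq : ∀ x ∈ Q, x ^ q ∈ Z) {z₀ : Γ} (hz₀ : z₀ ∈ Z) (hμz₀ : μ z₀ ≠ 1)
    (hR : ∀ x, x ∈ R ↔ x ∈ Q ∧ ∀ y ∈ Q, μ ⁅x, y⁆ = 1) (hUcyc : IsCyclic U)
    (hUc : ∀ a ∈ U, ∀ b ∈ U, Commute a b) (hqU : q.Coprime (Nat.card U)) (hkq : (q : k) ≠ 0)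
    (hkU : (Nat.card U : k) ≠ 0) :
    ∃ m, 0 < m ∧ Nat.card U = q ^ m + 1 ∧ R.relIndex Q = q ^ (2 * m) := by
  classical
  have hqf := Fact.mk hq
  set T : Subgroup Γ := zpowers τ with hT
  have hTU : T ≤ U := zpowers_le.2 hτU
  have hRQ : R ≤ Q := fun x hx => ((hR x).1 hx).1
  have hcomZ : ∀ x ∈ Q, ∀ y ∈ Q, ⁅x, y⁆ ∈ Z := fun x hx y hy => hDZ (commutator_mem_commutator hx hy)
  have hμ1 : μ 1 = 1 := isWt_one hv₀μ hv₀
  have hμm : ∀ x ∈ Z, ∀ y ∈ Z, μ (x * y) = μ x * μ y := fun x hx y hy => isWt_mul hv₀μ hv₀ hx hy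
  have hZR : Z ≤ R := by
    intro z hz
    rw [hR]
    refine ⟨hZQ hz, fun y hy => ?_⟩
    rw [(commutatorElement_eq_one_iff_commute).2 (hZc z hz y hy).symm, hμ1]
  have hzcom : ∀ z ∈ Z, ∀ x ∈ Q, ∀ y ∈ Q, ⁅z * x, y⁆ = ⁅x, y⁆ := by
    intro z hz x hx y hy
    have h1 : ⁅z * x, y⁆ = z * ⁅x, y⁆ * (y * z⁻¹ * y⁻¹) := by
      simp only [commutatorElement_def]; group
    have h2 : y * z⁻¹ * y⁻¹ = z⁻¹ := by
      rw [((hZc z hz y hy).inv_right).eq, mul_inv_cancel_right]
    rw [h1, h2, ← (hZc z hz ⁅x, y⁆ (hZQ (hcomZ x hx y hy))).eq, mul_inv_cancel_right]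
  have hQR : Q ≤ normalizer (R : Set Γ) := by
    rw [le_normalizer_iff]
    intro g hg x hx
    have h2 : g * x * g⁻¹ = ⁅g, x⁆ * x := by rw [commutatorElement_def]; group
    rw [h2]
    exact mul_mem (hZR (hcomZ g hg x (hRQ hx))) hx
  have hUR : U ≤ normalizer (R : Set Γ) := by
    rw [le_normalizer_iff]
    intro g hg x hx
    rw [hR]
    refine ⟨(le_normalizer_iff.1 hUQ) g hg x (hRQ hx), fun y hy => ?_⟩
    have h1 : g⁻¹ * y * g ∈ Q := conj_mem_of_normalizer (hUQ hg) hy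
    have h2 : g⁻¹ * ⁅g * x * g⁻¹, y⁆ * g = ⁅x, g⁻¹ * y * g⁆ := by
      simp only [commutatorElement_def]; group
    rw [← (hUμ hg).2 _ (hcomZ _ ((le_normalizer_iff.1 hUQ) g hg x (hRQ hx)) y hy), h2]
    exact ((hR x).1 hx).2 _ h1
  -- the weight space
  set V : Submodule k W := wtSub H Z μ with hV
  have hVQ : ∀ x ∈ Q, ∀ w ∈ V, H x w ∈ V := by
    intro x hx w hw z hz
    rw [← Module.End.mul_apply, ← map_mul, ← (hZc z hz x hx).eq, map_mul, Module.End.mul_apply,
      hw z hz, map_smul]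
  have hVU : ∀ x ∈ U, ∀ w ∈ V, H x w ∈ V := by
    intro g hg w hw z hz
    have h1 := isWt_tw H hw (hUμ hg).1 z hz
    rw [h1, tw_apply, (hUμ hg).2 z hz]
  have hVne : Nontrivial V := ⟨⟨v₀, hv₀μ⟩, 0, fun h => hv₀ (congrArg Subtype.val h)⟩
  have hcomR : ∀ x ∈ R, ∀ y ∈ Q, ∀ w ∈ V, H x (H y w) = H y (H x w) := by
    intro x hx y hy w hw
    have h1 : x * y = ⁅x, y⁆ * (y * x) := by rw [commutatorElement_def]; group
    have h2 : H (y * x) w ∈ V := hVQ _ (mul_mem hy (hRQ hx)) w hw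
    rw [← Module.End.mul_apply, ← map_mul, h1, map_mul, Module.End.mul_apply,
      h2 _ (hcomZ x (hRQ hx) y hy), ((hR x).1 hx).2 y hy, one_smul, map_mul, Module.End.mul_apply]
  have hcardk : (Nat.card R : k) ≠ 0 := by
    intro h
    obtain ⟨m, hm⟩ := IsPGroup.iff_card.1 (hQ.to_le hRQ)
    rw [hm, Nat.cast_pow] at h
    exact pow_ne_zero m hkq h
  have hpowcard : ∀ x ∈ R, x ^ Nat.card R = 1 := by
    intro x hx
    have h1 : (⟨x, hx⟩ : R) ^ Nat.card R = 1 := pow_card_eq_one'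
    exact congrArg (Subtype.val : R → Γ) h1
  have hRT : ∀ g ∈ ⁅R, T⁆, ∀ w ∈ V, H g w = w := by
    intro g hg w hw
    refine eq_on_of_weights H V R (fun x hx u hu => hVQ x (hRQ hx) u hu)
      (fun x hx y hy u hu => hcomR x hx y (hRQ hy) u hu) (Nat.card R) hcardk hpowcard (H g) ?_ w hw
    intro v hvV χ hv0 hv
    have h1 : ∃ a ∈ U, a ≠ 1 ∧ a ∈ stab R χ := by
      by_contra hcon
      push Not at hcon
      have h1 := sum_stab_eq_zero H hUR hv (hsum v hvV)
      have h2 : (Finset.univ.filter fun a' : U => (a' : Γ) ∈ stab R χ) = {1} := by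
        ext a'
        simp only [Finset.mem_filter, Finset.mem_univ, true_and, Finset.mem_singleton]
        constructor
        · intro h
          by_contra h3
          exact hcon a' a'.2 (fun h4 => h3 (Subtype.ext h4)) h
        · rintro rfl
          exact one_mem _
      rw [h2, Finset.sum_singleton] at h1
      apply hv0
      simpa using h1
    obtain ⟨a, haU, ha1, haS⟩ := h1
    have h2 : T ≤ stab R χ := zpowers_le.2 ((zpowers_le.2 haS) (hτ a haU ha1))
    have h3 := commutator_le_kerWt hv hv0 h2 hg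
    have hgR : g ∈ R := (le_normalizer_iff_commutator_le_left.mp (hTU.trans hUR)) hg
    rw [hv g hgR, h3.2, one_smul]
  have hcopU : (Nat.card T).Coprime (Nat.card Q) := by
    obtain ⟨m, hm⟩ := IsPGroup.iff_card.1 hQ
    rw [hm]
    exact (Nat.Coprime.pow_left m (hqU.coprime_dvd_right (card_dvd_of_le hTU))).symm
  have hcopR : (Nat.card T).Coprime (Nat.card R) := hcopU.coprime_dvd_right (card_dvd_of_le hRQ)
  have hRs : Group.IsSolvable R := by
    have : Group.IsNilpotent R := (hQ.to_le hRQ).isNilpotent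
    infer_instance
  have hscal : ∀ x ∈ R, ∃ c ∈ Z, ∀ w ∈ V, H x w = μ c • w := by
    intro x hx
    obtain ⟨r, hr, c, hc, rfl⟩ := exists_eq_mul_of_mem (hTU.trans hUR) hcopR (Or.inr hRs) hx
    have hcZ : c ∈ Z := by
      apply hCτ
      refine ⟨hRQ hc.1, ?_⟩
      exact mem_centralizer_singleton_iff.2 (mem_centralizer_iff.1 hc.2 τ (mem_zpowers τ)).symm
    refine ⟨c, hcZ, fun w hw => ?_⟩
    rw [map_mul, Module.End.mul_apply, hw c hcZ, map_smul, hRT r hr w hw]
  choose! f hf hfH using hscal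
  set ν : Q → k := fun x => μ (f x) with hν
  have hinvQ : ∀ x : Q, ∀ w ∈ V, H (x : Γ) w ∈ V := fun x => hVQ x x.2
  let h : Q →* Module.End k V := ModRep.subrep (H.comp Q.subtype) V fun x w hw => hVQ x x.2 w hw
  let s : U →* Module.End k V := ModRep.subrep (H.comp U.subtype) V fun x w hw => hVU x x.2 w hw
  have hh : ∀ (x : Q) (w : V), ((h x w : V) : W) = H (x : Γ) w := fun x w => rfl
  have hs : ∀ (x : U) (w : V), ((s x w : V) : W) = H (x : Γ) w := fun x w => rfl
  have hνv : ∀ x : Q, (x : Γ) ∈ R → H (x : Γ) v₀ = ν x • v₀ := fun x hx => hfH x hx v₀ hv₀μ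
  have hνeq : ∀ x : Q, (x : Γ) ∈ R → ∀ c : k, H (x : Γ) v₀ = c • v₀ → ν x = c := by
    intro x hx c hc
    rw [hνv x hx] at hc
    have h1 : (ν x - c) • v₀ = 0 := by rw [sub_smul, hc, sub_self]
    rcases smul_eq_zero.1 h1 with h2 | h2
    · exact sub_eq_zero.1 h2
    · exact absurd h2 hv₀
  have hνZ : ∀ x : Q, (x : Γ) ∈ Z → ν x = μ x := fun x hx => hνeq x (hZR hx) _ (hv₀μ x hx)
  refine HeisExt.card_eq_of_heis (ElabRep.conjHom U Q hUQ) h s ?_ ?_ (R.subgroupOf Q) ν ?_ hq hQ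
    ?_ ?_ ?_ ?_ ?_ ?_ ?_ ?_ ?_ ?_ hUcyc (fun a b => Subtype.ext (hUc a a.2 b b.2)) hqU hkq hkU
  · intro u x
    apply LinearMap.ext
    intro w
    apply Subtype.ext
    rw [Module.End.mul_apply, Module.End.mul_apply, hs, hh, hh, hs, ElabRep.conjHom_apply,
      ← Module.End.mul_apply, ← Module.End.mul_apply, ← map_mul, ← map_mul]
    congr 2
    group
  · apply LinearMap.ext
    intro w
    apply Subtype.ext
    rw [LinearMap.sum_apply, Submodule.coe_sum]
    exact hsum w w.2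
  · intro x hx w
    apply Subtype.ext
    rw [hh]
    exact hfH x hx w w.2
  · intro x
    exact hZR (hQq x x.2)
  · intro u x hx
    exact (le_normalizer_iff.1 hUR) u u.2 x hx
  · intro x y
    exact hZR (hcomZ x x.2 y y.2)
  · intro x hx y
    rw [hνZ _ (hcomZ x x.2 y y.2)]
    exact ((hR x).1 hx).2 y y.2
  · intro u x hx
    have hx' : (x : Γ) ∈ R := hx
    refine hνeq _ ((le_normalizer_iff.1 hUR) u u.2 x hx) _ ?_
    rw [ElabRep.conjHom_apply, map_mul, map_mul, Module.End.mul_apply, Module.End.mul_apply,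
      hfH x hx' _ (hVU _ (inv_mem u.2) v₀ hv₀μ), map_smul, ← Module.End.mul_apply, ← map_mul,
      mul_inv_cancel, map_one]
    rfl
  · intro x hx
    change (x : Γ) ∈ R
    rw [hR]
    refine ⟨x.2, fun y hy => ?_⟩
    rw [← hx ⟨y, hy⟩, hνZ _ (hcomZ x x.2 y hy)]
    rfl
  · intro u hu1 x hx
    have hu1' : (u : Γ) ≠ 1 := fun h => hu1 (Subtype.ext h)
    have hx' : (x : Γ)⁻¹ * ((u : Γ) * x * (u : Γ)⁻¹) ∈ R := hx
    change (x : Γ) ∈ R
    have h0 : ∀ i : ℕ, (x : Γ)⁻¹ * ((u : Γ) ^ i * x * ((u : Γ) ^ i)⁻¹) ∈ R := by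
      intro i
      induction i with
      | zero => simp
      | succ i ih =>
        have h2 := mul_mem hx' ((le_normalizer_iff.1 hUR) u u.2 _ ih)
        have h3 : (x : Γ)⁻¹ * ((u : Γ) ^ (i + 1) * x * ((u : Γ) ^ (i + 1))⁻¹) =
            (x : Γ)⁻¹ * ((u : Γ) * x * (u : Γ)⁻¹) *
              ((u : Γ) * ((x : Γ)⁻¹ * ((u : Γ) ^ i * x * ((u : Γ) ^ i)⁻¹)) * (u : Γ)⁻¹) := by
          rw [pow_succ']; simp only [mul_inv_rev, mul_assoc, inv_mul_cancel_left, mul_inv_cancel_left]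
        rw [h3]
        exact h2
    have h1 : ∀ t ∈ T, (x : Γ)⁻¹ * (t * x * t⁻¹) ∈ R := by
      intro t ht
      have ht' : t ∈ zpowers (u : Γ) := (zpowers_le.2 (hτ u u.2 hu1')) ht
      have h3 := ((isOfFinOrder_of_finite (u : Γ)).mem_powers_iff_mem_zpowers).2 ht'
      rw [Submonoid.mem_powers_iff] at h3
      obtain ⟨i, rfl⟩ := h3
      exact h0 i
    obtain ⟨d, hd, hxd⟩ := exists_mul_mem_centralizer (hTU.trans hUR) hcopR (Or.inr hRs) (x : Γ) h1
    have h2 : (x : Γ) * d ∈ Z := by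
      apply hCτ
      refine ⟨mul_mem x.2 (hRQ hd), ?_⟩
      exact mem_centralizer_singleton_iff.2 (mem_centralizer_iff.1 hxd τ (mem_zpowers τ)).symm
    have h3 := mul_mem (hZR h2) (inv_mem hd)
    rwa [mul_inv_cancel_right] at h3
  · intro x hx
    change μ (f x) ^ q = 1
    have h0 : ∀ z ∈ Z, ∀ i : ℕ, μ (z ^ i) = μ z ^ i := by
      intro z hz i
      induction i with
      | zero => rw [pow_zero, pow_zero, hμ1]
      | succ i ih => rw [pow_succ, pow_succ, hμm _ (pow_mem hz i) _ hz, ih]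
    have h1 : μ (f x) ^ q = μ (f x ^ q) := (h0 _ (hf x hx) q).symm
    rw [h1, hZq _ (hf x hx), hμ1]
  · exact ⟨⟨z₀, hZQ hz₀⟩, hZR hz₀, by rw [hνZ ⟨z₀, hZQ hz₀⟩ hz₀]; exact hμz₀⟩
  · intro htop
    have hRQ' : R = Q := le_antisymm hRQ (by
      intro x hx
      have : (⟨x, hx⟩ : Q) ∈ R.subgroupOf Q := by rw [htop]; trivial
      exact this)
    have h1 := hRT z₀ (by rw [hRQ', hQτ]; exact hZQ hz₀) v₀ hv₀μ
    rw [hv₀μ z₀ hz₀] at h1
    apply hμz₀
    have h2 : (μ z₀ - 1) • v₀ = 0 := by rw [sub_smul, h1, one_smul, sub_self]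
    rcases smul_eq_zero.1 h2 with h3 | h3
    · exact sub_eq_zero.1 h3
    · exact absurd h3 hv₀

end Heis

section Count

variable {Γ : Type u} [Group Γ] [Finite Γ]

theorem card_dvd_relIndex_sub_one {A Q Z : Subgroup Γ} (hAQ : A ≤ normalizer (Q : Set Γ))
    (hAZ : A ≤ normalizer (Z : Set Γ))
    (hfree : ∀ a ∈ A, a ≠ 1 → ∀ x ∈ Q, x⁻¹ * (a * x * a⁻¹) ∈ Z → x ∈ Z) :
    Nat.card A ∣ Z.relIndex Q - 1 := by
  classical
  have hcQ : ∀ a : A, ∀ x : Q, (a : Γ) * x * (a : Γ)⁻¹ ∈ Q := fun a x =>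
    (le_normalizer_iff.1 hAQ) a a.2 x x.2
  let act : MulAction A (Q ⧸ Z.subgroupOf Q) :=
    { smul := fun a => Quotient.map' (fun x : Q => (⟨(a : Γ) * x * (a : Γ)⁻¹, hcQ a x⟩ : Q)) (by
        intro x y hxy
        rw [QuotientGroup.leftRel_apply] at hxy ⊢
        have h1 : (x : Γ)⁻¹ * y ∈ Z := hxy
        have h2 := (le_normalizer_iff.1 hAZ) a a.2 _ h1
        change ((a : Γ) * x * (a : Γ)⁻¹)⁻¹ * ((a : Γ) * y * (a : Γ)⁻¹) ∈ Z
        have h3 : ((a : Γ) * x * (a : Γ)⁻¹)⁻¹ * ((a : Γ) * y * (a : Γ)⁻¹) =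
          (a : Γ) * ((x : Γ)⁻¹ * y) * (a : Γ)⁻¹ := by group
        rw [h3]
        exact h2)
      one_smul := by
        intro x
        induction x using Quotient.inductionOn' with | h x => ?_
        change Quotient.mk'' _ = Quotient.mk'' x
        congr 1
        apply Subtype.ext
        simp
      mul_smul := by
        intro a b x
        induction x using Quotient.inductionOn' with | h x => ?_
        change Quotient.mk'' _ = Quotient.mk'' _
        congr 1
        apply Subtype.ext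
        simp [mul_assoc] }
  have hsm : ∀ (a : A) (x : Q), a • ((x : Q) : Q ⧸ Z.subgroupOf Q) =
      ((⟨(a : Γ) * x * (a : Γ)⁻¹, hcQ a x⟩ : Q) : Q ⧸ Z.subgroupOf Q) := fun a x => rfl
  have h := CycNum.card_dvd_sub_one (MulAction.toPermHom A (Q ⧸ Z.subgroupOf Q))
    ((1 : Q) : Q ⧸ Z.subgroupOf Q) ?_ ?_
  · exact h
  · intro a
    change a • ((1 : Q) : Q ⧸ Z.subgroupOf Q) = _
    rw [hsm]
    congr 1
    apply Subtype.ext
    simp
  · intro a ha x
    induction x using Quotient.inductionOn' with | h x => ?_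
    intro hx
    have hx' : a • ((x : Q) : Q ⧸ Z.subgroupOf Q) = ((x : Q) : Q ⧸ Z.subgroupOf Q) := hx
    rw [hsm, eq_comm, QuotientGroup.eq] at hx'
    have h1 : (x : Γ)⁻¹ * ((a : Γ) * x * (a : Γ)⁻¹) ∈ Z := hx'
    have h2 := hfree a a.2 (fun h => ha (Subtype.ext h)) x x.2 h1
    change ((x : Q) : Q ⧸ Z.subgroupOf Q) = _
    rw [eq_comm, QuotientGroup.eq, inv_one, one_mul]
    exact h2

theorem relIndex_le_pow {A Q R : Subgroup Γ} {σ : Γ} (hA : A = zpowers σ)
    (hAQ : A ≤ normalizer (Q : Set Γ)) {J : ℕ} (hJ : 0 < J)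
    (hσJ : σ ^ J ∈ normalizer (R : Set Γ))
    (hR : ∀ x ∈ Q, (∀ i, 0 < i → i < J → (σ ^ i)⁻¹ * x * σ ^ i ∈ R) → x ∈ R)
    (X : Subgroup Γ) (hX : ∀ x ∈ Q, (∀ g ∈ A, g⁻¹ * x * g ∈ R) → x ∈ X) :
    X.relIndex Q ≤ (R.relIndex Q) ^ (J - 1) := by
  classical
  set f : Fin (J - 1) → Subgroup Γ := fun i => MulAut.conj (σ ^ ((i : ℕ) + 1)) • R with hf
  have hσQ : ∀ i : ℕ, σ ^ i ∈ normalizer (Q : Set Γ) := fun i =>
    hAQ (by rw [hA]; exact pow_mem (mem_zpowers σ) i)
  have h1 : Q ⊓ (⨅ i, f i) ≤ X := by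
    intro x hx
    have hxf : ∀ i, 0 < i → i < J → (σ ^ i)⁻¹ * x * σ ^ i ∈ R := by
      intro i hi0 hi
      have h2 := (mem_iInf.1 hx.2) ⟨i - 1, by omega⟩
      rw [hf] at h2
      simp only at h2
      rw [mem_conj_smul, Nat.sub_add_cancel hi0] at h2
      exact h2
    have hxR : x ∈ R := hR x hx.1 hxf
    have hxf' : ∀ i, i < J → (σ ^ i)⁻¹ * x * σ ^ i ∈ R := by
      intro i hi
      rcases Nat.eq_zero_or_pos i with h | h
      · rw [h, pow_zero]; simpa using hxR
      · exact hxf i h hi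
    apply hX x hx.1
    intro g hg
    rw [hA] at hg
    have h3 := ((isOfFinOrder_of_finite σ).mem_powers_iff_mem_zpowers).2 hg
    rw [Submonoid.mem_powers_iff] at h3
    obtain ⟨i, rfl⟩ := h3
    have h4 : σ ^ i = σ ^ (i % J) * (σ ^ J) ^ (i / J) := by
      rw [← pow_mul, ← pow_add, Nat.mod_add_div]
    rw [h4]
    have h5 := conj_mem_of_normalizer (pow_mem hσJ (i / J)) (hxf' (i % J) (Nat.mod_lt _ hJ))
    have h6 : (σ ^ (i % J) * (σ ^ J) ^ (i / J))⁻¹ * x * (σ ^ (i % J) * (σ ^ J) ^ (i / J)) =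
      ((σ ^ J) ^ (i / J))⁻¹ * ((σ ^ (i % J))⁻¹ * x * σ ^ (i % J)) * (σ ^ J) ^ (i / J) := by group
    rw [h6]
    exact h5
  have h2 : X.relIndex Q ≤ (Q ⊓ (⨅ i, f i)).relIndex Q :=
    relIndex_le_of_le_left h1 (by
      rw [relIndex]
      exact FiniteIndex.index_ne_zero)
  have h3 : (Q ⊓ (⨅ i, f i)).relIndex Q = (⨅ i, f i).relIndex Q := by
    rw [inf_comm, inf_relIndex_right]
  have h4 : (⨅ i, f i).relIndex Q ≤ ∏ i, (f i).relIndex Q := relIndex_iInf_le f
  have h5 : ∀ i, (f i).relIndex Q = R.relIndex Q := by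
    intro i
    have h6 : MulAut.conj (σ ^ ((i : ℕ) + 1)) • Q = Q := conj_smul_of_mem_normalizer (hσQ _)
    have h7 := relIndex_pointwise_smul (MulAut.conj (σ ^ ((i : ℕ) + 1))) R Q
    rw [h6] at h7
    exact h7
  rw [h3] at h2
  refine h2.trans (h4.trans ?_)
  rw [Finset.prod_congr rfl fun i _ => h5 i, Finset.prod_const, Finset.card_univ, Fintype.card_fin]

end Count

section Main

theorem le_centralizer_of_cyclic {Γ : Type u} [Group Γ] [Finite Γ] {k : Type v} {W : Type w}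
    [Field k] [IsAlgClosed k] [AddCommGroup W] [Module k W] [FiniteDimensional k W]
    (H : Γ →* Module.End k W) (σ : Γ) (A : Subgroup Γ) [Fintype A] (hA : A = zpowers σ) {p n : ℕ}
    (hp : p.Prime) (hp2 : p ≠ 2)
    (hn : 0 < n) (ho : orderOf σ = p ^ n) (hsum : ∀ w : W, ∑ a : A, H (a : Γ) w = 0)
    {q : ℕ} (hq : q.Prime) (hqp : q ≠ p) (hkq : (q : k) ≠ 0) (hkp : (p : k) ≠ 0) :
    ∀ m : ℕ, ∀ Q : Subgroup Γ, A ≤ normalizer (Q : Set Γ) → IsPGroup q Q →
      (∀ x ∈ Q, H x = 1 → x = 1) → Q ⊓ centralizer (A : Set Γ) = ⊥ → Nat.card Q ≤ m →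
      Q ≤ centralizer {σ ^ p ^ (n - 1)} := by
  classical
  intro m
  induction m with
  | zero =>
    intro Q _ _ _ _ hc
    exact absurd hc (by have := Nat.card_pos (α := Q); omega)
  | succ m ih =>
    intro Q hAQ hQp hinj hfix hcard
    by_contra hne
    have hpf := Fact.mk hp
    have hqf := Fact.mk hq
    obtain ⟨hτp, hτ1⟩ := order_pow_prime hp hn ho
    set τ : Γ := σ ^ p ^ (n - 1) with hτ
    set T : Subgroup Γ := zpowers τ with hT
    have hσA : σ ∈ A := by rw [hA]; exact mem_zpowers σ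
    have hτA : τ ∈ A := pow_mem hσA _
    have hTA : T ≤ A := zpowers_le.2 hτA
    have hAc : Nat.card A = p ^ n := by rw [hA, Nat.card_zpowers, ho]
    have hAab : ∀ a ∈ A, ∀ b ∈ A, Commute a b := by
      intro a ha b hb
      rw [hA] at ha hb
      obtain ⟨i, rfl⟩ := mem_zpowers_iff.1 ha
      obtain ⟨j, rfl⟩ := mem_zpowers_iff.1 hb
      exact Commute.zpow_zpow_self σ i j
    have hAp : IsPGroup p A := IsPGroup.of_card hAc
    have hcop : ∀ S L : Subgroup Γ, S ≤ A → L ≤ Q → (Nat.card S).Coprime (Nat.card L) := by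
      intro S L hS hL
      exact IsPGroup.coprime_card_of_ne p q hqp.symm _ _ (hAp.to_le hS) (hQp.to_le hL)
    have hτmem : ∀ a ∈ A, a ≠ 1 → τ ∈ zpowers a := fun a ha ha1 =>
      tau_mem hp hn ho (by rw [← hA]; exact ha) ha1
    have hsolv : ∀ L : Subgroup Γ, L ≤ Q → Group.IsSolvable L := by
      intro L hL
      have : Group.IsNilpotent L := (hQp.to_le hL).isNilpotent
      infer_instance
    have hQne : Q ≠ ⊥ := by
      rintro h
      apply hne
      rw [h]
      exact bot_le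
    have hnt : Nontrivial Q := (nontrivial_iff_ne_bot Q).2 hQne
    have hIH : ∀ R : Subgroup Γ, R < Q → A ≤ normalizer (R : Set Γ) → R ≤ centralizer {τ} := by
      intro R hR hAR
      refine ih R hAR (hQp.to_le hR.le) (fun x hx => hinj x (hR.le hx)) ?_ ?_
      · rw [eq_bot_iff, ← hfix]
        exact inf_le_inf_right _ hR.le
      · have h1 : Nat.card R < Nat.card Q := by
          apply lt_of_le_of_ne (card_le_of_le hR.le)
          intro h
          exact hR.ne (eq_of_le_of_card_ge hR.le h.ge)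
        omega
    have hcT : ∀ R : Subgroup Γ, R ≤ centralizer {τ} → R ≤ centralizer (T : Set Γ) := by
      intro R hR
      rw [le_centralizer_iff, hT, zpowers_le, mem_centralizer_iff]
      intro x hx
      exact mem_centralizer_singleton_iff.1 (hR hx)
    have hcT' : ∀ R : Subgroup Γ, R ≤ centralizer {τ} → T ≤ centralizer (R : Set Γ) := fun R hR =>
      le_centralizer_iff.1 (hcT R hR)
    have hTQ : T ≤ normalizer (Q : Set Γ) := hTA.trans hAQ
    have hAT : A ≤ normalizer (T : Set Γ) := by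
      rw [le_normalizer_iff]
      intro a ha x hx
      have h1 := (hAab a ha x (hTA hx)).eq
      rw [h1, mul_inv_cancel_right]
      exact hx
    -- (a)
    have hQT : ⁅Q, T⁆ = Q := by
      have hle : ⁅Q, T⁆ ≤ Q := le_normalizer_iff_commutator_le_left.mp hTQ
      by_contra hneq
      have hlt : ⁅Q, T⁆ < Q := lt_of_le_of_ne hle hneq
      have h1 := hIH _ hlt (Lib.H32PSolv.le_normalizer_commutator hAQ hAT)
      have h2 : ⁅⁅Q, T⁆, T⁆ = ⊥ := by
        rw [commutator_eq_bot_iff_le_centralizer]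
        exact hcT _ h1
      have h3 := commutator_eq_bot_of_commutator_commutator hTQ (hcop T Q hTA le_rfl)
        (Or.inr (hsolv Q le_rfl)) h2
      rw [commutator_eq_bot_iff_le_centralizer] at h3
      apply hne
      intro x hx
      exact mem_centralizer_singleton_iff.2 (mem_centralizer_iff.1 (h3 hx) τ (mem_zpowers τ)).symm
    -- (b)
    set Z : Subgroup Γ := Q ⊓ centralizer (Q : Set Γ) with hZ
    set D : Subgroup Γ := ⁅Q, Q⁆ with hD
    have hDQ : D ≤ Q := le_normalizer_iff_commutator_le_left.mp le_normalizer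
    have hZQ : Z ≤ Q := inf_le_left
    have hZc : ∀ z ∈ Z, ∀ y ∈ Q, Commute y z := fun z hz y hy => mem_centralizer_iff.1 hz.2 y hy
    have hNZ : ∀ S : Subgroup Γ, S ≤ normalizer (Q : Set Γ) → S ≤ normalizer (Z : Set Γ) := by
      intro S hS
      rw [le_normalizer_iff]
      intro g hg z hz
      refine ⟨(mem_normalizer_iff.mp (hS hg) z).mp hz.1, ?_⟩
      change g * z * g⁻¹ ∈ centralizer (Q : Set Γ)
      rw [mem_centralizer_iff]
      intro y hy
      have h1 : g⁻¹ * y * g ∈ Q := conj_mem_of_normalizer (hS hg) hy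
      have h2 := (hZc z hz _ h1).eq
      calc y * (g * z * g⁻¹) = g * ((g⁻¹ * y * g) * z) * g⁻¹ := by group
        _ = g * (z * (g⁻¹ * y * g)) * g⁻¹ := by rw [h2]
        _ = g * z * g⁻¹ * y := by group
    have hAZ := hNZ A hAQ
    have hDlt : D < Q := by
      have hs := hsolv Q le_rfl
      have h1 : _root_.commutator Q < ⊤ := Group.IsSolvable.commutator_lt_top_of_nontrivial Q
      refine lt_of_le_of_ne hDQ ?_
      intro h2
      apply h1.ne
      rw [hD, ← Q.map_subtype_commutator] at h2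
      have h3 : (_root_.commutator Q).map Q.subtype = (⊤ : Subgroup Q).map Q.subtype := by
        rw [h2, ← MonoidHom.range_eq_map, range_subtype]
      exact Subgroup.map_injective Q.subtype_injective h3
    have hAD : A ≤ normalizer (D : Set Γ) := Lib.H32PSolv.le_normalizer_commutator hAQ hAQ
    have hDτ := hIH D hDlt hAD
    have hDZ : D ≤ Z := by
      refine le_inf hDQ ?_
      rw [le_centralizer_iff]
      exact le_centralizer_of_commutator_eq hQT
        (Lib.H32PSolv.le_normalizer_commutator le_normalizer le_normalizer) (hcT' _ hDτ)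
    -- (c)
    set C : Subgroup Γ := Q ⊓ centralizer {τ} with hC
    have hCZ : C ≤ Z := by
      have h1 : Q ≤ normalizer (C : Set Γ) := by
        rw [le_normalizer_iff]
        intro g hg x hx
        have h2 : g * x * g⁻¹ = ⁅g, x⁆ * x := by rw [commutatorElement_def]; group
        have h3 : ⁅g, x⁆ ∈ D := commutator_mem_commutator hg hx.1
        rw [h2]
        exact mul_mem (show ⁅g, x⁆ ∈ C from ⟨hDQ h3, hDτ h3⟩) hx
      refine le_inf inf_le_left ?_
      rw [le_centralizer_iff]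
      exact le_centralizer_of_commutator_eq hQT h1 (hcT' C inf_le_right)
    have hpowcard : ∀ L : Subgroup Γ, ∀ x ∈ L, x ^ Nat.card L = 1 := by
      intro L x hx
      have h1 : (⟨x, hx⟩ : L) ^ Nat.card L = 1 := pow_card_eq_one'
      exact congrArg (Subtype.val : L → Γ) h1
    have hcardk : ∀ L : Subgroup Γ, L ≤ Q → (Nat.card L : k) ≠ 0 := by
      intro L hL h
      obtain ⟨m, hm⟩ := IsPGroup.iff_card.1 (hQp.to_le hL)
      rw [hm, Nat.cast_pow] at h
      exact pow_ne_zero m hkq h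
    -- `Q` is not abelian
    have hZlt : Z < Q := by
      refine lt_of_le_of_ne hZQ ?_
      intro hZeq
      have hab : ∀ x ∈ Q, ∀ y ∈ Q, Commute x y := by
        intro x hx y hy
        rw [← hZeq] at hy
        exact hZc y hy x hx
      apply hQne
      rw [eq_bot_iff]
      intro x hx
      rw [mem_bot]
      apply hinj x hx
      ext w
      refine eq_on_of_weights H ⊤ Q (fun _ _ _ _ => trivial) ?_ (Nat.card Q) (hcardk Q le_rfl)
        (hpowcard Q) (H x) ?_ w trivial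
      · intro x hx y hy u _
        rw [← Module.End.mul_apply, ← Module.End.mul_apply, ← map_mul, ← map_mul,
          (hab x hx y hy).eq]
      · intro v _ χ hv0 hv
        have h1 : ∃ a ∈ A, a ≠ 1 ∧ a ∈ stab Q χ := by
          by_contra hcon
          push Not at hcon
          have h1 := sum_stab_eq_zero H hAQ hv (hsum v)
          have h2 : (Finset.univ.filter fun a' : A => (a' : Γ) ∈ stab Q χ) = {1} := by
            ext a'
            simp only [Finset.mem_filter, Finset.mem_univ, true_and, Finset.mem_singleton]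
            constructor
            · intro h
              by_contra h3
              exact hcon a' a'.2 (fun h4 => h3 (Subtype.ext h4)) h
            · rintro rfl
              exact one_mem _
          rw [h2, Finset.sum_singleton] at h1
          apply hv0
          simpa using h1
        obtain ⟨a, haA, ha1, haS⟩ := h1
        have h2 : T ≤ stab Q χ := zpowers_le.2 ((zpowers_le.2 haS) (hτmem a haA ha1))
        have h3 := commutator_le_kerWt hv hv0 h2
        rw [hQT] at h3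
        rw [hv x hx, (h3 hx).2, one_smul]
    have hZτ := hIH Z hZlt hAZ
    have hZC : Z ≤ C := le_inf hZQ hZτ
    have hZD : Z ≤ D := by
      intro z hz
      refine mem_commutator_of_commute hp.pos hτp (hAQ hτA) hQT ?_ hz.1
        (mem_centralizer_singleton_iff.1 (hZτ hz)).symm
      have h1 := hcop T Q hTA le_rfl
      rwa [hT, Nat.card_zpowers, orderOf_eq_prime hτp hτ1] at h1
    have hF : (frattini Q).map Q.subtype ≤ Z := by
      obtain ⟨h1, h2⟩ := frattini_map hQne hAQ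
      exact (le_inf h1.le (hIH _ h1 h2)).trans hCZ
    have hQq : ∀ x ∈ Q, x ^ q ∈ Z := by
      intro x hx
      exact hF ⟨⟨x, hx⟩ ^ q, HBBasic.pow_mem_frattini hQp ⟨x, hx⟩, rfl⟩
    have hcomZ : ∀ x ∈ Q, ∀ y ∈ Q, ⁅x, y⁆ ∈ Z := fun x hx y hy =>
      hDZ (commutator_mem_commutator hx hy)
    have hZq : ∀ z ∈ Z, z ^ q = 1 := by
      have h1 : ∀ x ∈ Q, ∀ y ∈ Q, ∀ i : ℕ, ⁅x ^ i, y⁆ = ⁅x, y⁆ ^ i := by
        intro x hx y hy i
        induction i with
        | zero => simp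
        | succ i ih' =>
          have h2 : ⁅x ^ (i + 1), y⁆ = x ^ i * ⁅x, y⁆ * (x ^ i)⁻¹ * ⁅x ^ i, y⁆ := by
            rw [pow_succ]; simp only [commutatorElement_def]; group
          rw [h2, ih', (hZc _ (hcomZ x hx y hy) _ (pow_mem hx i)).eq, mul_inv_cancel_right,
            pow_succ']
      let E : Subgroup Γ :=
        { carrier := {z | z ∈ Z ∧ z ^ q = 1}
          one_mem' := ⟨one_mem _, one_pow _⟩
          mul_mem' := by
            rintro a b ⟨ha, ha'⟩ ⟨hb, hb'⟩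
            exact ⟨mul_mem ha hb, by rw [(hZc b hb a (hZQ ha)).mul_pow, ha', hb', one_mul]⟩
          inv_mem' := by
            rintro a ⟨ha, ha'⟩
            exact ⟨inv_mem ha, by rw [inv_pow, ha', inv_one]⟩ }
      have h2 : D ≤ E := by
        rw [hD, commutator_le]
        intro x hx y hy
        refine ⟨hcomZ x hx y hy, ?_⟩
        rw [← h1 x hx y hy q, commutatorElement_eq_one_iff_commute]
        exact (hZc _ (hQq x hx) y hy).symm
      intro z hz
      exact (h2 (hZD hz)).2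
    have hZne : ∃ z ∈ Z, z ≠ 1 := by
      have h3 := hQp.center_nontrivial
      obtain ⟨z, hz⟩ := exists_ne (1 : center Q)
      refine ⟨((z : Q) : Γ), ⟨(z : Q).2, ?_⟩, fun h => hz (Subtype.ext (Subtype.ext h))⟩
      change ((z : Q) : Γ) ∈ centralizer (Q : Set Γ)
      rw [mem_centralizer_iff]
      intro y hy
      exact congrArg (Subtype.val : Q → Γ) ((mem_center_iff.1 z.2) ⟨y, hy⟩)
    -- a nontrivial weight of `Z`
    obtain ⟨v, μ, hv0, hv, z₀, hz₀, hμz₀⟩ : ∃ (v : W) (χ : Γ → k), v ≠ 0 ∧ IsWt H Z χ v ∧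
        ∃ z ∈ Z, χ z ≠ 1 := by
      by_contra hcon
      push Not at hcon
      obtain ⟨z, hz, hz1⟩ := hZne
      apply hz1
      apply hinj z (hZQ hz)
      ext w
      refine eq_on_of_weights H ⊤ Z (fun _ _ _ _ => trivial) ?_ (Nat.card Z) (hcardk Z hZQ)
        (hpowcard Z) (H z) ?_ w trivial
      · intro x hx y hy u _
        rw [← Module.End.mul_apply, ← Module.End.mul_apply, ← map_mul, ← map_mul,
          (hZc y hy x (hZQ hx)).eq]
      · intro v _ χ hv0 hv
        rw [hv z hz, hcon v χ hv0 hv z hz, one_smul]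
    set U : Subgroup Γ := A ⊓ stab Z μ with hU
    have hUA : U ≤ A := inf_le_left
    have hUμ : U ≤ stab Z μ := inf_le_right
    let _ : Fintype U := Fintype.ofFinite U
    have hsumU : ∀ w, IsWt H Z μ w → ∑ u : U, H (u : Γ) w = 0 := by
      intro w hw
      have h1 := sum_stab_eq_zero H hAZ hw (hsum w)
      rw [← h1]
      symm
      refine Finset.sum_bij' (fun a ha => (⟨(a : Γ), ⟨a.2, (Finset.mem_filter.1 ha).2⟩⟩ : U))
        (fun u _ => (⟨(u : Γ), hUA u.2⟩ : A)) ?_ ?_ ?_ ?_ ?_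
      · intro a ha; exact Finset.mem_univ _
      · intro u _
        exact Finset.mem_filter.2 ⟨Finset.mem_univ _, hUμ u.2⟩
      · intro a ha; rfl
      · intro u _; rfl
      · intro a ha; rfl
    have hUne : ∃ u ∈ U, u ≠ 1 := by
      by_contra hcon
      push Not at hcon
      have h1 := hsumU v hv
      have h2 : (Finset.univ : Finset U) = {1} := by
        ext a'
        simp only [Finset.mem_univ, Finset.mem_singleton, true_iff]
        exact Subtype.ext (hcon a' a'.2)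
      rw [h2, Finset.sum_singleton] at h1
      apply hv0
      simpa using h1
    have hτU : τ ∈ U := by
      obtain ⟨u, hu, hu1⟩ := hUne
      exact (zpowers_le.2 hu) (hτmem u (hUA hu) hu1)
    have hcycA : IsCyclic A := by rw [hA]; infer_instance
    have hUcyc : IsCyclic U := isCyclic_of_le hUA
    -- `R`
    let R : Subgroup Γ :=
      { carrier := {x | x ∈ Q ∧ ∀ y ∈ Q, μ ⁅x, y⁆ = 1}
        one_mem' := ⟨one_mem _, fun y _ => by rw [commutatorElement_one_left, isWt_one hv hv0]⟩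
        mul_mem' := by
          rintro a b ⟨ha, ha'⟩ ⟨hb, hb'⟩
          refine ⟨mul_mem ha hb, fun y hy => ?_⟩
          have h1 : ⁅a * b, y⁆ = ⁅b, y⁆ * ⁅a, y⁆ := by
            have h2 : ⁅a * b, y⁆ = a * ⁅b, y⁆ * a⁻¹ * ⁅a, y⁆ := by
              simp only [commutatorElement_def]; group
            rw [h2, (hZc _ (hcomZ b hb y hy) a ha).eq, mul_inv_cancel_right]
          rw [h1, isWt_mul hv hv0 (hcomZ b hb y hy) (hcomZ a ha y hy), ha' y hy, hb' y hy, one_mul]
        inv_mem' := by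
          rintro a ⟨ha, ha'⟩
          refine ⟨inv_mem ha, fun y hy => ?_⟩
          have h1 : ⁅a⁻¹, y⁆ = ⁅a, y⁆⁻¹ := by
            have h2 : ⁅a⁻¹, y⁆ = a⁻¹ * ⁅a, y⁆⁻¹ * a⁻¹⁻¹ := by
              simp only [commutatorElement_def]; group
            rw [h2, (hZc _ (inv_mem (hcomZ a ha y hy)) a⁻¹ (inv_mem ha)).eq, mul_inv_cancel_right]
          have h3 := isWt_inv hv hv0 (hcomZ a ha y hy)
          rw [ha' y hy, one_mul] at h3
          rw [h1, h3] }
    have hR : ∀ x, x ∈ R ↔ x ∈ Q ∧ ∀ y ∈ Q, μ ⁅x, y⁆ = 1 := fun x => Iff.rfl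
    have hkU : (Nat.card U : k) ≠ 0 := by
      intro h
      obtain ⟨m, hm⟩ := IsPGroup.iff_card.1 (hAp.to_le hUA)
      rw [hm, Nat.cast_pow] at h
      exact pow_ne_zero m hkp h
    have hqU : q.Coprime (Nat.card U) := by
      obtain ⟨m, hm⟩ := IsPGroup.iff_card.1 (hAp.to_le hUA)
      rw [hm]
      exact Nat.Coprime.pow_right m ((Nat.coprime_primes hq hp).2 hqp)
    obtain ⟨m, hm, hUcard, hRind⟩ := heis_step H Q U Z R μ hq hQp (hUA.trans hAQ) hZQ hZc hDZ hUμ
      hv0 hv hsumU hτU (fun u hu hu1 => hτmem u (hUA hu) hu1) hCZ hQT hZq hQq hz₀ hμz₀ hR hUcyc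
      (fun a ha b hb => hAab a (hUA ha) b (hUA hb)) hqU hkq hkU
    obtain ⟨l, hl⟩ := IsPGroup.iff_card.1 (hAp.to_le hUA)
    have hq2 : q = 2 := by
      by_contra hq2
      have h1 : Even (q ^ m + 1) := ((hq.odd_of_ne_two hq2).pow).add_one
      rw [← hUcard, hl] at h1
      have h2 : Odd (p ^ l) := (hp.odd_of_ne_two hp2).pow
      exact (Nat.not_even_iff_odd.2 h2) h1
    have hpl : p ^ l = 2 ^ m + 1 := by rw [← hl, hUcard, hq2]
    -- the index of `U`
    have hdvd : U.relIndex A ∣ p ^ n := by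
      rw [← hAc, ← card_mul_relIndex_of_le hUA]
      exact Dvd.intro_left _ rfl
    obtain ⟨j, hjn, hj⟩ := (Nat.dvd_prime_pow hp).1 hdvd
    have hljn : l + j = n := by
      have h1 := card_mul_relIndex_of_le hUA
      rw [hl, hj, hAc, ← pow_add] at h1
      exact Nat.pow_right_injective hp.two_le h1
    set J := p ^ j with hJ
    have hJ0 : 0 < J := pow_pos hp.pos j
    have hσJ : σ ^ J ∈ U := by
      have hn' : (U.subgroupOf A).Normal := by
        constructor
        intro x hx g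
        have h1 : g * x * g⁻¹ = x := by
          apply Subtype.ext
          change (g : Γ) * x * (g : Γ)⁻¹ = x
          rw [(hAab g g.2 x x.2).eq, mul_inv_cancel_right]
        rw [h1]
        exact hx
      have h1 : (⟨σ, hσA⟩ : A) ^ J ∈ U.subgroupOf A := by
        rw [← QuotientGroup.eq_one_iff, QuotientGroup.mk_pow, ← hj, relIndex, index_eq_card]
        exact pow_card_eq_one'
      exact h1
    have hZcop : (Nat.card A).Coprime (Nat.card Z) := hcop A Z le_rfl hZQ
    have hZA : ⁅Z, A⁆ = Z := by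
      have h1 := commutator_sup_centralizer hAZ hZcop (Or.inr (hsolv Z hZQ))
      have h2 : Z ⊓ centralizer (A : Set Γ) = ⊥ := by
        rw [eq_bot_iff, ← hfix]
        exact inf_le_inf_right _ hZQ
      rwa [h2, sup_bot_eq] at h1
    have hσZ : ∀ i : ℕ, σ ^ i ∈ normalizer (Z : Set Γ) := fun i => hAZ (pow_mem hσA i)
    have hσQ : ∀ i : ℕ, σ ^ i ∈ normalizer (Q : Set Γ) := fun i => hAQ (pow_mem hσA i)
    set ω : Γ → k := fun z => ∏ i ∈ Finset.range J, μ ((σ ^ i)⁻¹ * z * σ ^ i) with hω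
    have hωm : ∀ x ∈ Z, ∀ y ∈ Z, ω (x * y) = ω x * ω y := by
      intro x hx y hy
      rw [hω]
      simp only
      rw [← Finset.prod_mul_distrib]
      refine Finset.prod_congr rfl fun i _ => ?_
      rw [← isWt_mul hv hv0 (conj_mem_of_normalizer (hσZ i) hx) (conj_mem_of_normalizer (hσZ i) hy)]
      congr 1
      group
    have hωσ : ∀ x ∈ Z, ω (σ * x * σ⁻¹) = ω x := by
      intro x hx
      have hσx : σ * x * σ⁻¹ ∈ Z := (le_normalizer_iff.1 hAZ) σ hσA x hx
      have h1 : ∀ i : ℕ, (σ ^ (i + 1))⁻¹ * (σ * x * σ⁻¹) * σ ^ (i + 1) = (σ ^ i)⁻¹ * x * σ ^ i := by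
        intro i
        rw [pow_succ']
        group
      have h2 : μ ((σ ^ J)⁻¹ * (σ * x * σ⁻¹) * σ ^ J) =
          μ ((σ ^ 0)⁻¹ * (σ * x * σ⁻¹) * σ ^ 0) := by
        rw [(hUμ hσJ).2 _ hσx, pow_zero, inv_one, one_mul, mul_one]
      have h3 := Finset.prod_range_succ (fun i => μ ((σ ^ i)⁻¹ * (σ * x * σ⁻¹) * σ ^ i)) J
      have h4 := Finset.prod_range_succ' (fun i => μ ((σ ^ i)⁻¹ * (σ * x * σ⁻¹) * σ ^ i)) J
      rw [h3, h2] at h4
      have h5 : μ ((σ ^ 0)⁻¹ * (σ * x * σ⁻¹) * σ ^ 0) ≠ 0 := by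
        intro h
        have h6 := isWt_inv hv hv0 (conj_mem_of_normalizer (hσZ 0) hσx)
        rw [h, zero_mul] at h6
        exact zero_ne_one h6
      have h6 := mul_right_cancel₀ h5 h4
      simp only [h1] at h6
      exact h6
    have hωσi : ∀ i : ℕ, ∀ x ∈ Z, ω (σ ^ i * x * (σ ^ i)⁻¹) = ω x := by
      intro i
      induction i with
      | zero => intro x _; rw [pow_zero]; simp
      | succ i ih' =>
        intro x hx
        have h1 : σ ^ (i + 1) * x * (σ ^ (i + 1))⁻¹ = σ ^ i * (σ * x * σ⁻¹) * (σ ^ i)⁻¹ := by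
          rw [pow_succ]; group
        rw [h1, ih' _ ((le_normalizer_iff.1 hAZ) σ hσA x hx), hωσ x hx]
    have hω1 : ω 1 = 1 := by
      rw [hω]
      simp only
      refine Finset.prod_eq_one fun i _ => ?_
      rw [mul_one, inv_mul_cancel, isWt_one hv hv0]
    have hωZ : ∀ z ∈ Z, ω z = 1 := by
      let E : Subgroup Γ :=
        { carrier := {z | z ∈ Z ∧ ω z = 1}
          one_mem' := ⟨one_mem _, hω1⟩
          mul_mem' := by
            rintro a b ⟨ha, ha'⟩ ⟨hb, hb'⟩
            exact ⟨mul_mem ha hb, by rw [hωm a ha b hb, ha', hb', one_mul]⟩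
          inv_mem' := by
            rintro a ⟨ha, ha'⟩
            refine ⟨inv_mem ha, ?_⟩
            have h1 := hωm a ha a⁻¹ (inv_mem ha)
            rw [mul_inv_cancel, hω1, ha', one_mul] at h1
            exact h1.symm }
      have h2 : ⁅Z, A⁆ ≤ E := by
        rw [commutator_le]
        intro x hx a ha
        have ha' := ha
        rw [hA] at ha'
        have h3 := ((isOfFinOrder_of_finite σ).mem_powers_iff_mem_zpowers).2 ha'
        rw [Submonoid.mem_powers_iff] at h3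
        obtain ⟨i, rfl⟩ := h3
        have h4 : ⁅x, σ ^ i⁆ = x * (σ ^ i * x⁻¹ * (σ ^ i)⁻¹) := by
          rw [commutatorElement_def]; group
        have h5 : σ ^ i * x⁻¹ * (σ ^ i)⁻¹ ∈ Z := (le_normalizer_iff.1 hAZ) _ ha _ (inv_mem hx)
        refine ⟨by rw [h4]; exact mul_mem hx h5, ?_⟩
        rw [h4, hωm x hx _ h5, hωσi i _ (inv_mem hx), ← hωm x hx _ (inv_mem hx), mul_inv_cancel, hω1]
      intro z hz
      rw [← hZA] at hz
      exact (h2 hz).2
    have hRmem : ∀ x ∈ Q, (∀ i, 0 < i → i < J → (σ ^ i)⁻¹ * x * σ ^ i ∈ R) → x ∈ R := by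
      intro x hx hxi
      refine ⟨hx, fun y hy => ?_⟩
      have h1 := hωZ _ (hcomZ x hx y hy)
      rw [hω] at h1
      simp only at h1
      rw [Finset.prod_eq_single_of_mem 0 (Finset.mem_range.2 hJ0)] at h1
      · rw [pow_zero, inv_one, one_mul, mul_one] at h1
        exact h1
      · intro i hi hi0
        have h2 := (hxi i (Nat.pos_of_ne_zero hi0) (Finset.mem_range.1 hi)).2 _
          (conj_mem_of_normalizer (hσQ i) hy)
        rw [← h2]
        congr 1
        simp only [commutatorElement_def]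
        group
    have hRQ : R ≤ Q := fun x hx => hx.1
    have hUR : U ≤ normalizer (R : Set Γ) := by
      rw [le_normalizer_iff]
      intro g hg x hx
      have hgQ := (le_normalizer_iff.1 hAQ) g (hUA hg) x hx.1
      refine ⟨hgQ, fun y hy => ?_⟩
      have h1 : g⁻¹ * y * g ∈ Q := conj_mem_of_normalizer (hAQ (hUA hg)) hy
      have h2 : g⁻¹ * ⁅g * x * g⁻¹, y⁆ * g = ⁅x, g⁻¹ * y * g⁆ := by
        simp only [commutatorElement_def]; group
      rw [← (hUμ hg).2 _ (hcomZ _ hgQ y hy), h2]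
      exact hx.2 _ h1
    have hRlt : R < Q := by
      refine lt_of_le_of_ne hRQ ?_
      intro h
      rw [h, relIndex_self, hq2] at hRind
      have h1 : 2 ^ 1 ≤ 2 ^ (2 * m) := Nat.pow_le_pow_right (by norm_num) (by omega)
      omega
    let X : Subgroup Γ :=
      { carrier := {x | x ∈ Q ∧ ∀ g ∈ A, g⁻¹ * x * g ∈ R}
        one_mem' := ⟨one_mem _, fun g _ => by simp⟩
        mul_mem' := by
          rintro a b ⟨ha, ha'⟩ ⟨hb, hb'⟩
          refine ⟨mul_mem ha hb, fun g hg => ?_⟩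
          have h1 : g⁻¹ * (a * b) * g = (g⁻¹ * a * g) * (g⁻¹ * b * g) := by group
          rw [h1]
          exact mul_mem (ha' g hg) (hb' g hg)
        inv_mem' := by
          rintro a ⟨ha, ha'⟩
          refine ⟨inv_mem ha, fun g hg => ?_⟩
          have h1 : g⁻¹ * a⁻¹ * g = (g⁻¹ * a * g)⁻¹ := by group
          rw [h1]
          exact inv_mem (ha' g hg) }
    have hXR : X ≤ R := by
      intro x hx
      have h1 := hx.2 1 (one_mem _)
      rwa [inv_one, one_mul, mul_one] at h1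
    have hAX : A ≤ normalizer (X : Set Γ) := by
      rw [le_normalizer_iff]
      intro g hg x hx
      refine ⟨(le_normalizer_iff.1 hAQ) g hg x hx.1, fun g' hg' => ?_⟩
      have h1 := hx.2 (g⁻¹ * g') (mul_mem (inv_mem hg) hg')
      have h2 : g'⁻¹ * (g * x * g⁻¹) * g' = (g⁻¹ * g')⁻¹ * x * (g⁻¹ * g') := by group
      rw [h2]
      exact h1
    have hXQ : X < Q := lt_of_le_of_lt hXR hRlt
    have hXZ : X ≤ Z := (le_inf hXQ.le (hIH X hXQ hAX)).trans hCZ
    have hle := relIndex_le_pow hA hAQ hJ0 (hUR hσJ) hRmem Z (fun x hx hx' => hXZ ⟨hx, hx'⟩)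
    have hfree : ∀ a ∈ A, a ≠ 1 → ∀ x ∈ Q, x⁻¹ * (a * x * a⁻¹) ∈ Z → x ∈ Z := by
      intro a ha ha1 x hx hax
      have h0 : ∀ i : ℕ, x⁻¹ * (a ^ i * x * (a ^ i)⁻¹) ∈ Z := by
        intro i
        induction i with
        | zero => simp
        | succ i ih' =>
          have h2 := mul_mem hax ((le_normalizer_iff.1 hAZ) a ha _ ih')
          have h3 : x⁻¹ * (a ^ (i + 1) * x * (a ^ (i + 1))⁻¹) =
              x⁻¹ * (a * x * a⁻¹) * (a * (x⁻¹ * (a ^ i * x * (a ^ i)⁻¹)) * a⁻¹) := by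
            rw [pow_succ']
            simp only [mul_inv_rev, mul_assoc, inv_mul_cancel_left, mul_inv_cancel_left]
          rw [h3]
          exact h2
      have h1 : ∀ t ∈ T, x⁻¹ * (t * x * t⁻¹) ∈ Z := by
        intro t ht
        have ht' : t ∈ zpowers a := (zpowers_le.2 (hτmem a ha ha1)) ht
        have h3 := ((isOfFinOrder_of_finite a).mem_powers_iff_mem_zpowers).2 ht'
        rw [Submonoid.mem_powers_iff] at h3
        obtain ⟨i, rfl⟩ := h3
        exact h0 i
      obtain ⟨d, hd, hxd⟩ := exists_mul_mem_centralizer (hTA.trans hAZ) (hcop T Z hTA hZQ)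
        (Or.inr (hsolv Z hZQ)) x h1
      have h2 : x * d ∈ Z := by
        apply hCZ
        refine ⟨mul_mem hx (hZQ hd), ?_⟩
        exact mem_centralizer_singleton_iff.2 (mem_centralizer_iff.1 hxd τ (mem_zpowers τ)).symm
      have h3 := mul_mem h2 (inv_mem hd)
      rwa [mul_inv_cancel_right] at h3
    have hdvd2 := card_dvd_relIndex_sub_one hAQ hAZ hfree
    obtain ⟨e, he⟩ : ∃ e, Z.relIndex Q = 2 ^ e := by
      obtain ⟨r, hr⟩ := IsPGroup.iff_card.1 hQp
      have h1 : Z.relIndex Q ∣ q ^ r := by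
        rw [← hr, ← card_mul_relIndex_of_le hZQ]
        exact Dvd.intro_left _ rfl
      obtain ⟨e, _, he⟩ := (Nat.dvd_prime_pow hq).1 h1
      exact ⟨e, by rw [he, hq2]⟩
    have he0 : 0 < e := by
      rcases Nat.eq_zero_or_pos e with h | h
      · rw [h, pow_zero, relIndex_eq_one] at he
        exact absurd he hZlt.not_ge
      · exact h
    rw [he, hRind, hq2, ← pow_mul] at hle
    have hle2 : e ≤ 2 * m * (J - 1) := (Nat.pow_le_pow_iff_right (by norm_num)).1 hle
    rw [he, hAc, ← hljn] at hdvd2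
    have hge := CycNum.le_of_dvd hp hp2 hpl hm he0 hdvd2
    have h1 : 2 * m * (J - 1) < 2 * m * J := by
      apply Nat.mul_lt_mul_of_pos_left (by omega) (by omega)
    exact absurd (lt_of_le_of_lt hle2 h1) (not_lt.2 hge)

end Main

end Cfsg.Agent.Lib.ShultGross
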