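import Mathlib
import Cfsg.Agent.Lib.ShultGross
import Cfsg.Agent.Lib.SecRep59
import Cfsg.Agent.Lib.HHExp
import Cfsg.Agent.Lib.Cores

/-!
Sections for Bryukhanova's theorem: a critical subgroup `C` of a `2`-group `P` and the module
`C / Z₁` (helper59).
-/

set_option autoImplicit false

namespace Cfsg.Agent.Lib.BrySec

open Module Subgroup Cfsg Cfsg.Agent.Lib.CoprimeAction Cfsg.Agent.Lib.CoprimeAction2
  Cfsg.Agent.Lib.SubgroupTools
open scoped commutatorElement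

universe u v w

/-- the inductive Bezout argument: `x ^ a ∈ H`, `x ^ b ∈ H` coprime gives `x ∈ H`. -/
theorem mem_of_pow_mem_coprime {G : Type*} [Group G] {H : Subgroup G} {x : G} {a b : ℕ}
    (hab : a.Coprime b) (ha : x ^ a ∈ H) (hb : x ^ b ∈ H) : x ∈ H := by
  have h := Nat.gcd_eq_gcd_ab a b
  rw [hab.gcd_eq_one] at h
  have h1 : x = (x ^ a) ^ (Nat.gcdA a b) * (x ^ b) ^ (Nat.gcdB a b) := by
    rw [← zpow_natCast, ← zpow_natCast, ← zpow_mul, ← zpow_mul, ← zpow_add, ← h]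
    simp
  rw [h1]
  exact mul_mem (zpow_mem ha _) (zpow_mem hb _)

theorem sq_commutator {G : Type*} [Group G] {c d : G} (h1 : c * c * d = d * (c * c))
    (h2 : ⁅d, c⁆ * c = c * ⁅d, c⁆) : ⁅d, c⁆ * ⁅d, c⁆ = 1 := by
  have e1 : d * c * d⁻¹ = ⁅d, c⁆ * c := by rw [commutatorElement_def]; group
  have e2 : (d * c * d⁻¹) * (d * c * d⁻¹) = c * c := by
    have : (d * c * d⁻¹) * (d * c * d⁻¹) = d * (c * c) * d⁻¹ := by group
    rw [this, ← h1]; group
  rw [e1] at e2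
  have e3 : ⁅d, c⁆ * c * (⁅d, c⁆ * c) = ⁅d, c⁆ * ⁅d, c⁆ * (c * c) := by
    rw [mul_assoc, ← mul_assoc c, ← h2]; group
  rw [e3] at e2
  exact mul_eq_right.1 e2

theorem nle_of_conj {G : Type*} [Group G] {N A : Subgroup G}
    (h : ∀ n ∈ N, ∀ a ∈ A, n * a * n⁻¹ ∈ A) : N ≤ normalizer (A : Set G) := by
  intro n hn
  rw [mem_normalizer_iff]
  intro a
  refine ⟨h n hn a, fun ha => ?_⟩
  have := h n⁻¹ (inv_mem hn) _ ha
  have e : n⁻¹ * (n * a * n⁻¹) * n⁻¹⁻¹ = a := by group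
  rwa [e] at this

theorem nle_inf_cent {G : Type*} [Group G] {N A B : Subgroup G} (hA : N ≤ normalizer (A : Set G))
    (hB : N ≤ normalizer (B : Set G)) :
    N ≤ normalizer ((A ⊓ centralizer (B : Set G) : Subgroup G) : Set G) := by
  refine nle_of_conj fun n hn a ha => ?_
  refine ⟨(mem_normalizer_iff.1 (hA hn) a).1 ha.1, mem_centralizer_iff.2 fun z hz => ?_⟩
  have h1 : n⁻¹ * z * n ∈ B := by
    have := (mem_normalizer_iff.1 (inv_mem (hB hn)) z).1 hz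
    simpa using this
  have h2 := mem_centralizer_iff.1 ha.2 _ h1
  have h3 := congrArg (fun t => n * t * n⁻¹) h2
  simpa [mul_assoc] using h3

theorem nle_comm {G : Type*} [Group G] {N A B : Subgroup G} (hA : N ≤ normalizer (A : Set G))
    (hB : N ≤ normalizer (B : Set G)) : N ≤ normalizer ((⁅A, B⁆ : Subgroup G) : Set G) := by
  refine nle_of_conj fun a ha x hx => ?_
  have h1 : ⁅A, B⁆ ≤ (⁅A, B⁆).comap (MulAut.conj a).toMonoidHom := by
    rw [commutator_le]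
    intro v hv z hz
    rw [mem_comap, map_commutatorElement]
    exact commutator_mem_commutator ((mem_normalizer_iff.1 (hA ha) v).1 hv)
      ((mem_normalizer_iff.1 (hB ha) z).1 hz)
  exact h1 hx

theorem exists_crit {G : Type u} [Group G] [Finite G] {P N L₁ : Subgroup G} (hP : IsPGroup 2 P)
    (hPN : P ≤ N) (hNP : N ≤ normalizer (P : Set G)) (hLN : L₁ ≤ N)
    (hNL : N ≤ normalizer (L₁ : Set G))
    (hcop : ∀ K : Subgroup G, IsPGroup 2 K → N ≤ normalizer (K : Set G) →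
      ⁅⁅K, L₁⁆, L₁⁆ = ⊥ → ⁅K, L₁⁆ = ⊥)
    (hne : ¬ L₁ ≤ centralizer (P : Set G)) :
    ∃ C Z₁ : Subgroup G, C ≤ P ∧ N ≤ normalizer (C : Set G) ∧ Z₁ ≤ C ∧
      N ≤ normalizer (Z₁ : Set G) ∧ ¬ ⁅C, L₁⁆ ≤ Z₁ ∧ ⁅C, P⁆ ≤ Z₁ ∧ (∀ c ∈ C, c * c ∈ Z₁) ∧
      (∀ C₀ ≤ C, N ≤ normalizer (C₀ : Set G) → C₀ ≠ C → C₀ ≤ Z₁) ∧
      ((∀ c ∈ C, c * c = 1) ∨ ((∀ c ∈ C, (∀ d ∈ C, c * d = d * c) → c ∈ Z₁) ∧
        (∀ c ∈ C, c ^ 4 = 1) ∧ ∀ c ∈ C, ∀ d ∈ C, c * c * d = d * (c * c))) := by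
  obtain ⟨C, ⟨hCP, hNC, hCne⟩, hmin⟩ := Set.Finite.exists_minimalFor
    (fun X : Subgroup G => Nat.card X)
    {X : Subgroup G | X ≤ P ∧ N ≤ normalizer (X : Set G) ∧ ¬ L₁ ≤ centralizer (X : Set G)}
    (Set.toFinite _) ⟨P, le_rfl, hNP, hne⟩
  have hC2 : IsPGroup 2 C := hP.to_le hCP
  have hCN : C ≤ N := hCP.trans hPN
  have hmax : ∀ C₀ ≤ C, N ≤ normalizer (C₀ : Set G) → C₀ ≠ C →
      C₀ ≤ C ⊓ centralizer (L₁ : Set G) := by
    intro C₀ h0 h1 h2
    refine le_inf h0 ?_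
    rw [le_centralizer_iff]
    by_contra h3
    apply h2
    have h4 := hmin (j := C₀) ⟨h0.trans hCP, h1, h3⟩ (Subgroup.card_le_of_le h0)
    exact Subgroup.eq_of_le_of_card_ge h0 h4
  set Z₁ : Subgroup G := C ⊓ centralizer (L₁ : Set G) with hZ₁
  have hNZ : N ≤ normalizer (Z₁ : Set G) := nle_inf_cent hNC hNL
  have hZC : Z₁ ≤ C := inf_le_left
  have hZL : Z₁ ≤ centralizer (L₁ : Set G) := inf_le_right
  have hCnb : C ≠ ⊥ := by
    rintro rfl
    apply hCne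
    rw [Subgroup.coe_bot]
    intro x _ y hy
    rw [Set.mem_singleton_iff.1 hy]; simp
  have hCZ : C ≠ Z₁ := by
    intro h
    apply hCne
    rw [le_centralizer_iff]
    exact h.le.trans hZL
  have hCL : ⁅C, L₁⁆ = C := by
    have h1 : ⁅C, L₁⁆ ≤ C := le_normalizer_iff_commutator_le_left.mp (hLN.trans hNC)
    by_contra h2
    have h3 : N ≤ normalizer ((⁅C, L₁⁆ : Subgroup G) : Set G) := nle_comm hNC hNL
    have h4 := (hmax _ h1 h3 h2).trans hZL
    apply hCne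
    rw [le_centralizer_iff, ← commutator_eq_bot_iff_le_centralizer]
    apply hcop C hC2 hNC
    rw [commutator_eq_bot_iff_le_centralizer]
    exact h4
  have hCLZ : ¬ ⁅C, L₁⁆ ≤ Z₁ := by
    rw [hCL]
    intro h
    exact hCZ (le_antisymm h hZC)
  have hCPZ : ⁅C, P⁆ ≤ Z₁ := by
    have h1 := commutator_lt_of_pgroup hP hC2 (hPN.trans hNC) hCnb
    exact hmax _ h1.le (nle_comm hNC hNP) h1.ne
  have hsq : ∀ c ∈ C, c * c ∈ Z₁ := by
    intro c hc
    obtain ⟨h1, h2⟩ := ShultGross.frattini_map hCnb hNC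
    have h3 := hmax _ h1.le h2 h1.ne
    apply h3
    refine ⟨⟨c, hc⟩ ^ 2, HBBasic.pow_mem_frattini hC2 ⟨c, hc⟩, ?_⟩
    rw [map_pow]
    exact pow_two c
  have hZcen : Z₁ ≤ centralizer (C : Set G) := by
    have h1 : ⁅⁅L₁, Z₁⁆, C⁆ = ⊥ := by
      have : ⁅L₁, Z₁⁆ = ⊥ := by
        rw [commutator_comm, commutator_eq_bot_iff_le_centralizer]
        exact hZL
      rw [this, commutator_bot_left]
    have h2 : ⁅⁅Z₁, C⁆, L₁⁆ = ⊥ := by
      rw [commutator_eq_bot_iff_le_centralizer]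
      exact (le_normalizer_iff_commutator_le_left.mp (hCN.trans hNZ)).trans hZL
    have h3 := commutator_commutator_eq_bot_of_rotate h1 h2
    rw [hCL] at h3
    rwa [commutator_comm, commutator_eq_bot_iff_le_centralizer] at h3
  refine ⟨C, Z₁, hCP, hNC, hZC, hNZ, hCLZ, hCPZ, hsq, hmax, ?_⟩
  have hZc : ∀ z ∈ Z₁, ∀ c ∈ C, z * c = c * z := fun z hz c hc =>
    ((mem_centralizer_iff.1 (hZcen hz)) c hc).symm
  by_cases hab : ∀ c ∈ C, ∀ d ∈ C, c * d = d * c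
  · left
    let D : Subgroup G :=
      { carrier := {c | c ∈ C ∧ c * c = 1}
        one_mem' := ⟨one_mem _, one_mul 1⟩
        mul_mem' := by
          rintro a b ⟨ha, ha1⟩ ⟨hb, hb1⟩
          refine ⟨mul_mem ha hb, ?_⟩
          calc a * b * (a * b) = a * (b * a) * b := by group
            _ = a * (a * b) * b := by rw [hab b hb a ha]
            _ = (a * a) * (b * b) := by group
            _ = 1 := by rw [ha1, hb1, one_mul]
        inv_mem' := by
          rintro a ⟨ha, ha1⟩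
          refine ⟨inv_mem ha, ?_⟩
          rw [← mul_inv_rev, ha1, inv_one] }
    have h1 : ⁅C, L₁⁆ ≤ D := by
      rw [commutator_le]
      intro c hc t ht
      have htC := (mem_normalizer_iff.1 (hNC (hLN ht)) c⁻¹).1 (inv_mem hc)
      have e1 : ⁅c, t⁆ = c * (t * c⁻¹ * t⁻¹) := by rw [commutatorElement_def]; group
      have e2 : c * c * t = t * (c * c) :=
        ((mem_centralizer_iff.1 (hZL (hsq c hc))) t ht).symm
      refine ⟨?_, ?_⟩
      · rw [e1]; exact mul_mem hc htC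
      · rw [e1]
        calc c * (t * c⁻¹ * t⁻¹) * (c * (t * c⁻¹ * t⁻¹))
            = c * ((t * c⁻¹ * t⁻¹) * c) * (t * c⁻¹ * t⁻¹) := by group
          _ = c * (c * (t * c⁻¹ * t⁻¹)) * (t * c⁻¹ * t⁻¹) := by rw [hab _ htC c hc]
          _ = (c * c * t) * (c * c)⁻¹ * t⁻¹ := by group
          _ = 1 := by rw [e2]; group
    intro c hc
    rw [← hCL] at hc
    exact (h1 hc).2
  · right
    push Not at hab
    have hsqc : ∀ c ∈ C, ∀ d ∈ C, c * c * d = d * (c * c) := fun c hc d hd =>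
      hZc _ (hsq c hc) d hd
    have hcomm : ∀ c ∈ C, ∀ d ∈ C, ⁅c, d⁆ ∈ Z₁ := fun c hc d hd =>
      hCPZ (commutator_mem_commutator hc (hCP hd))
    refine ⟨?_, ?_, hsqc⟩
    · have h1 : C ⊓ centralizer (C : Set G) ≤ Z₁ := by
        apply hmax _ inf_le_left
        · exact nle_inf_cent hNC hNC
        · intro h
          obtain ⟨c, hc, d, hd, hcd⟩ := hab
          apply hcd
          rw [← h] at hc
          exact ((mem_centralizer_iff.1 hc.2) d hd).symm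
      intro c hc h
      exact h1 ⟨hc, mem_centralizer_iff.2 fun d hd => (h d hd).symm⟩
    · have hz2 : ∀ c ∈ C, ∀ d ∈ C, ⁅d, c⁆ * ⁅d, c⁆ = 1 := fun c hc d hd =>
        sq_commutator (hsqc c hc d hd) (hZc _ (hcomm d hd c hc) c hc)
      have hp4 : ∀ c ∈ C, ∀ d ∈ C, (c * d) ^ 4 = c ^ 4 * d ^ 4 := by
        intro c hc d hd
        have e0 : d * c = ⁅d, c⁆ * (c * d) := by rw [commutatorElement_def]; group
        have hzc := hZc _ (hcomm d hd c hc)
        have e1 : (c * d) * (c * d) = ⁅d, c⁆ * ((c * c) * (d * d)) := by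
          calc (c * d) * (c * d) = c * (d * c) * d := by group
            _ = c * ⁅d, c⁆ * (c * d) * d := by rw [e0]; simp only [mul_assoc]
            _ = ⁅d, c⁆ * c * (c * d) * d := by rw [hzc c hc]
            _ = _ := by simp only [mul_assoc]
        have e2 : (c * d) ^ 4 = ((c * d) * (c * d)) * ((c * d) * (c * d)) := by
          simp only [pow_succ, pow_zero, one_mul, mul_assoc]
        have hcd : (c * c) * (d * d) ∈ C := mul_mem (mul_mem hc hc) (mul_mem hd hd)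
        rw [e2, e1]
        calc ⁅d, c⁆ * (c * c * (d * d)) * (⁅d, c⁆ * (c * c * (d * d)))
            = ⁅d, c⁆ * ((c * c * (d * d)) * ⁅d, c⁆) * (c * c * (d * d)) := by
              simp only [mul_assoc]
          _ = ⁅d, c⁆ * (⁅d, c⁆ * (c * c * (d * d))) * (c * c * (d * d)) := by
              rw [hzc _ hcd]
          _ = (⁅d, c⁆ * ⁅d, c⁆) * ((c * c) * ((d * d) * (c * c)) * (d * d)) := by
              simp only [mul_assoc]
          _ = (c * c) * ((c * c) * (d * d)) * (d * d) := by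
              rw [hz2 c hc d hd, one_mul, hsqc d hd _ (mul_mem hc hc)]
          _ = _ := by simp only [pow_succ, pow_zero, one_mul, mul_assoc]
      let D : Subgroup G :=
        { carrier := {c | c ∈ C ∧ c ^ 4 = 1}
          one_mem' := ⟨one_mem _, one_pow 4⟩
          mul_mem' := by
            rintro a b ⟨ha, ha1⟩ ⟨hb, hb1⟩
            exact ⟨mul_mem ha hb, by rw [hp4 a ha b hb, ha1, hb1, one_mul]⟩
          inv_mem' := by
            rintro a ⟨ha, ha1⟩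
            exact ⟨inv_mem ha, by rw [inv_pow, ha1, inv_one]⟩ }
      have h1 : ⁅C, L₁⁆ ≤ D := by
        rw [commutator_le]
        intro c hc t ht
        have htC := (mem_normalizer_iff.1 (hNC (hLN ht)) c⁻¹).1 (inv_mem hc)
        have e1 : ⁅c, t⁆ = c * (t * c⁻¹ * t⁻¹) := by rw [commutatorElement_def]; group
        have h4 : c ^ 4 ∈ Z₁ := by
          have : c ^ 4 = (c * c) * (c * c) := by
            simp only [pow_succ, pow_zero, one_mul, mul_assoc]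
          rw [this]
          exact mul_mem (hsq c hc) (hsq c hc)
        have e2 : c ^ 4 * t = t * c ^ 4 := ((mem_centralizer_iff.1 (hZL h4)) t ht).symm
        refine ⟨?_, ?_⟩
        · rw [e1]; exact mul_mem hc htC
        · rw [e1, hp4 c hc _ htC, conj_pow, inv_pow, ← mul_assoc, ← mul_assoc, e2]
          group
      intro c hc
      rw [← hCL] at hc
      exact (h1 hc).2

/-- the module `C / Z₁`. -/
theorem exists_rep {G : Type u} [Group G] [Finite G] {P N C Z₁ L₁ : Subgroup G} (hCP : C ≤ P)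
    (hPN : P ≤ N) (hNC : N ≤ normalizer (C : Set G))
    (hNZ : N ≤ normalizer (Z₁ : Set G)) (hLN : L₁ ≤ N) (hCL : ¬ ⁅C, L₁⁆ ≤ Z₁)
    (hCPZ : ⁅C, P⁆ ≤ Z₁) (hsq : ∀ c ∈ C, c * c ∈ Z₁)
    (hmax : ∀ C₀ ≤ C, N ≤ normalizer (C₀ : Set G) → C₀ ≠ C → C₀ ≤ Z₁) :
    ∃ (M : Type u) (_ : AddCommGroup M) (_ : Module (ZMod 2) M) (_ : Finite M)
      (ρ : Representation (ZMod 2) N M), Nontrivial M ∧
      (∀ V : Submodule (ZMod 2) M, (∀ (g : N), ∀ m ∈ V, ρ g m ∈ V) → V = ⊥ ∨ V = ⊤) ∧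
      (∀ g : N, ρ g = 1 ↔ ∀ c ∈ C, (g : G) * c * (g : G)⁻¹ * c⁻¹ ∈ Z₁) ∧
      (∀ (g : N) (n : ℕ), (∀ y ∈ C, ((g : G) ^ 2 ^ n)⁻¹ * (y * g) ^ 2 ^ n ∈ Z₁) →
        (ρ g - 1) ^ (2 ^ n - 1) = 0) := by
  have hCN : C ≤ N := hCP.trans hPN
  obtain ⟨M, i1, i2, i3, ρ, π, hπs, hπm, hπk, hπe⟩ := SecRep59.exists_section (q := 2) C Z₁ N
    (fun x hx y hy => hCPZ (commutator_mem_commutator hx (hCP hy)))
    (fun x hx => by rw [pow_two]; exact hsq x hx) hNC hNZ (hCN.trans hNZ)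
  have hπ1 : π 1 = 0 := (hπk 1).2 (one_mem _)
  have hπi : ∀ x : C, π x⁻¹ = - π x := by
    intro x
    rw [eq_neg_iff_add_eq_zero, ← hπm, inv_mul_cancel, hπ1]
  have hconj : ∀ (g : N) (c : G), c ∈ C → (g : G) * c * (g : G)⁻¹ ∈ C := fun g c hc =>
    (mem_normalizer_iff.1 (hNC g.2) c).1 hc
  have hone : ∀ g : N, ρ g = 1 ↔ ∀ c ∈ C, (g : G) * c * (g : G)⁻¹ * c⁻¹ ∈ Z₁ := by
    intro g
    constructor
    · intro h c hc
      have h1 := hπe g ⟨c, hc⟩ ⟨_, hconj g c hc⟩ rfl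
      rw [h, Module.End.one_apply] at h1
      have h2 := (hπk (⟨_, hconj g c hc⟩ * ⟨c, hc⟩⁻¹)).1 (by rw [hπm, hπi, ← h1, add_neg_cancel])
      exact h2
    · intro h
      refine LinearMap.ext fun m => ?_
      obtain ⟨⟨c, hc⟩, rfl⟩ := hπs m
      have h1 := hπe g ⟨c, hc⟩ ⟨_, hconj g c hc⟩ rfl
      rw [h1, Module.End.one_apply]
      have h2 := (hπk (⟨_, hconj g c hc⟩ * ⟨c, hc⟩⁻¹)).2 (h c hc)
      rw [hπm, hπi] at h2
      exact add_neg_eq_zero.1 h2
  refine ⟨M, i1, i2, i3, ρ, ?_, ?_, hone, ?_⟩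
  · by_contra hcon
    rw [not_nontrivial_iff_subsingleton] at hcon
    apply hCL
    rw [commutator_le]
    intro c hc t ht
    have h1 := (hone ⟨t, hLN ht⟩).1 (Subsingleton.elim _ _) c hc
    have h2 := inv_mem h1
    have e : ⁅c, t⁆ = (t * c * t⁻¹ * c⁻¹)⁻¹ := by rw [commutatorElement_def]; group
    rw [e]; exact h2
  · intro V hV
    let C₀ : Subgroup G :=
      { carrier := {c | ∃ hc : c ∈ C, π ⟨c, hc⟩ ∈ V}
        one_mem' := ⟨one_mem _, by
          have : (⟨1, one_mem _⟩ : C) = 1 := rfl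
          rw [this, hπ1]; exact zero_mem _⟩
        mul_mem' := by
          rintro a b ⟨ha, ha1⟩ ⟨hb, hb1⟩
          refine ⟨mul_mem ha hb, ?_⟩
          have : (⟨a * b, mul_mem ha hb⟩ : C) = ⟨a, ha⟩ * ⟨b, hb⟩ := rfl
          rw [this, hπm]; exact add_mem ha1 hb1
        inv_mem' := by
          rintro a ⟨ha, ha1⟩
          refine ⟨inv_mem ha, ?_⟩
          have : (⟨a⁻¹, inv_mem ha⟩ : C) = ⟨a, ha⟩⁻¹ := rfl
          rw [this, hπi]; exact neg_mem ha1 }
    have h0 : C₀ ≤ C := fun c hc => hc.1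
    have h1 : N ≤ normalizer (C₀ : Set G) := by
      refine nle_of_conj fun n hn c hc => ?_
      obtain ⟨hc, hcV⟩ := hc
      refine ⟨hconj ⟨n, hn⟩ c hc, ?_⟩
      rw [← hπe ⟨n, hn⟩ ⟨c, hc⟩ ⟨_, hconj ⟨n, hn⟩ c hc⟩ rfl]
      exact hV _ _ hcV
    by_cases h2 : C₀ = C
    · right
      rw [eq_top_iff]
      intro m _
      obtain ⟨⟨c, hc⟩, rfl⟩ := hπs m
      have h3 : c ∈ C₀ := by rw [h2]; exact hc
      exact h3.2
    · left
      rw [eq_bot_iff]
      intro m hm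
      obtain ⟨⟨c, hc⟩, rfl⟩ := hπs m
      have h3 : c ∈ C₀ := ⟨hc, hm⟩
      rw [Submodule.mem_bot, hπk]
      exact hmax C₀ h0 h1 h2 h3
  · intro g n hn
    have key : ∀ m : ℕ, ∀ (y : G) (hy : y ∈ C), ∃ (d : G) (hd : d ∈ C), (y * g) ^ m = d * (g : G) ^ m ∧
        π ⟨d, hd⟩ = (∑ i ∈ Finset.range m, ρ g ^ i) (π ⟨y, hy⟩) := by
      intro m
      induction m with
      | zero =>
        intro y hy
        refine ⟨1, one_mem _, by simp, ?_⟩
        have : (⟨1, one_mem _⟩ : C) = 1 := rfl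
        rw [this, hπ1]; simp
      | succ m ih =>
        intro y hy
        obtain ⟨d, hd, h1, h2⟩ := ih y hy
        refine ⟨y * ((g : G) * d * (g : G)⁻¹), mul_mem hy (hconj g d hd), ?_, ?_⟩
        · rw [pow_succ', h1, pow_succ']; group
        · have e : (⟨y * ((g : G) * d * (g : G)⁻¹), mul_mem hy (hconj g d hd)⟩ : C) =
              ⟨y, hy⟩ * ⟨_, hconj g d hd⟩ := rfl
          rw [e, hπm, ← hπe g ⟨d, hd⟩ ⟨_, hconj g d hd⟩ rfl, h2, Finset.sum_range_succ', pow_zero,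
            LinearMap.add_apply, Module.End.one_apply, add_comm, ← Module.End.mul_apply,
            Finset.mul_sum]
          simp only [← pow_succ']
    rw [← HHLin.sum_pow_eq (K := ZMod 2) (p := 2)]
    refine LinearMap.ext fun m => ?_
    obtain ⟨⟨y, hy⟩, rfl⟩ := hπs m
    obtain ⟨d, hd, h1, h2⟩ := key (2 ^ n) y hy
    rw [← h2, LinearMap.zero_apply, hπk]
    have h3 := hn y hy
    rw [h1] at h3
    have h4 := (mem_normalizer_iff.1 (hNZ (pow_mem g.2 (2 ^ n))) _).1 h3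
    have e : (g : G) ^ 2 ^ n * (((g : G) ^ 2 ^ n)⁻¹ * (d * (g : G) ^ 2 ^ n)) * ((g : G) ^ 2 ^ n)⁻¹
        = d := by group
    rwa [e] at h4

/-- lifting `2`-elements. -/
theorem lift_two {G H : Type*} [Group G] [Finite G] [Group H] (f : G →* H)
    (hf : Function.Surjective f) {x : H} {k : ℕ} (hx : x ^ 2 ^ k = 1) :
    ∃ y : G, f y = x ∧ ∃ a, y ^ 2 ^ a = 1 := by
  obtain ⟨g, rfl⟩ := hf x
  obtain ⟨a, m, hm, hak⟩ := Nat.exists_eq_pow_mul_and_not_dvd (n := orderOf g) (orderOf_pos g).ne' 2 (by norm_num)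
  have hcop : Nat.Coprime m (2 ^ k) :=
    Nat.Coprime.pow_right k ((Nat.Prime.coprime_iff_not_dvd Nat.prime_two).mpr hm).symm
  have hb := Nat.gcd_eq_gcd_ab m (2 ^ k)
  rw [hcop.gcd_eq_one] at hb
  set A := Nat.gcdA m (2 ^ k)
  set B := Nat.gcdB m (2 ^ k)
  refine ⟨(g ^ m) ^ A, ?_, a, ?_⟩
  · rw [map_zpow, map_pow]
    set x := f g
    calc (x ^ m) ^ A = (x ^ m) ^ A * (x ^ (2 ^ k)) ^ B := by rw [hx, one_zpow, mul_one]
      _ = x ^ ((m : ℤ) * A + ((2 ^ k : ℕ) : ℤ) * B) := by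
          rw [zpow_add, zpow_mul, zpow_mul, zpow_natCast, zpow_natCast]
      _ = x := by rw [← hb]; simp
  · rw [← zpow_natCast, ← zpow_mul, mul_comm A, zpow_mul, zpow_natCast, ← pow_mul]
    have : m * 2 ^ a = orderOf g := by rw [hak]; ring
    rw [this, pow_orderOf_eq_one, one_zpow]

theorem pCore_range {G : Type u} [Group G] [Finite G] {M : Type u} [AddCommGroup M]
    [Module (ZMod 2) M] [Finite M] [Nontrivial M] (ρ : Representation (ZMod 2) G M)
    (hirr : ∀ V : Submodule (ZMod 2) M, (∀ (g : G), ∀ m ∈ V, ρ g m ∈ V) → V = ⊥ ∨ V = ⊤) :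
    pCore 2 (MonoidHom.range (MonoidHom.toHomUnits (ρ : G →* Module.End (ZMod 2) M))) = ⊥ := by
  set γ := MonoidHom.toHomUnits (ρ : G →* Module.End (ZMod 2) M) with hγ
  have hγρ : ∀ g, ((γ g : (Module.End (ZMod 2) M)ˣ) : Module.End (ZMod 2) M) = ρ g := fun g => rfl
  set E := pCore 2 γ.range with hE
  have hE2 : IsPGroup 2 E := Cores.isPGroup_pCore 2 _
  let V : Submodule (ZMod 2) M :=
    { carrier := {m | ∀ e ∈ E, ((e : (Module.End (ZMod 2) M)ˣ) : Module.End (ZMod 2) M) m = m}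
      zero_mem' := fun e _ => map_zero _
      add_mem' := fun {a b} ha hb e he => by rw [map_add, ha e he, hb e he]
      smul_mem' := fun c a ha e he => by rw [map_smul, ha e he] }
  have hVinv : ∀ (g : G), ∀ m ∈ V, ρ g m ∈ V := by
    intro g m hm e he
    have h1 : (⟨γ g, ⟨g, rfl⟩⟩ : γ.range)⁻¹ * e * ⟨γ g, ⟨g, rfl⟩⟩ ∈ E := by
      have := (inferInstance : E.Normal).conj_mem e he (⟨γ g, ⟨g, rfl⟩⟩ : γ.range)⁻¹
      rwa [inv_inv] at this
    have h2 := hm _ h1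
    have h3 : e * ⟨γ g, ⟨g, rfl⟩⟩ = (⟨γ g, ⟨g, rfl⟩⟩ : γ.range) *
        ((⟨γ g, ⟨g, rfl⟩⟩ : γ.range)⁻¹ * e * ⟨γ g, ⟨g, rfl⟩⟩) := by group
    have h4 := congrArg (fun z : γ.range => ((z : (Module.End (ZMod 2) M)ˣ) : Module.End (ZMod 2) M) m) h3
    simp only [Subgroup.coe_mul, Units.val_mul, Module.End.mul_apply] at h4
    rw [← hγρ]
    rw [h4]
    congr 1
  have hVne : V ≠ ⊥ := by
    obtain ⟨m₀, hm₀⟩ := exists_ne (0 : M)
    have hdvd : 2 ∣ Nat.card M := by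
      have h1 : addOrderOf m₀ = 2 := by
        apply addOrderOf_eq_prime _ hm₀
        rw [two_nsmul, ← two_smul (ZMod 2), show (2 : ZMod 2) = 0 from rfl, zero_smul]
      rw [← h1]
      exact addOrderOf_dvd_natCard m₀
    let _ : MulAction E M :=
      { smul := fun e m => (((e : γ.range) : (Module.End (ZMod 2) M)ˣ) : Module.End (ZMod 2) M) m
        one_smul := fun m => rfl
        mul_smul := fun a b m => rfl }
    have hsm : ∀ (e : E) (m : M), e • m =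
      (((e : γ.range) : (Module.End (ZMod 2) M)ˣ) : Module.End (ZMod 2) M) m := fun e m => rfl
    obtain ⟨b, hb, hb0⟩ := hE2.exists_fixed_point_of_prime_dvd_card_of_fixed_point M hdvd (a := 0)
      (fun e => by rw [hsm, map_zero])
    intro h
    have h1 : b ∈ V := fun e he => hb ⟨e, he⟩
    rw [h, Submodule.mem_bot] at h1
    exact hb0 h1.symm
  have hVtop : V = ⊤ := (hirr V hVinv).resolve_left hVne
  rw [eq_bot_iff]
  intro e he
  rw [Subgroup.mem_bot]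
  apply Subtype.ext
  apply Units.ext
  refine LinearMap.ext fun m => ?_
  have h1 : m ∈ V := by rw [hVtop]; trivial
  exact h1 e he

end Cfsg.Agent.Lib.BrySec
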