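import Cfsg.Agent.Lib.BryFin2
import Cfsg.Agent.Lib.BrySec
import Cfsg.Agent.Lib.PLength
import Cfsg.Agent.Lib.H32PSolv
import Cfsg.Agent.Lib.Subnormal
import Cfsg.Agent.Lib.Fitting

/-!
Bryukhanova's theorem: `2`-length at most the exponent (helper59).
-/

set_option autoImplicit false

namespace Cfsg.Agent.Lib.BryMain

open Module Subgroup Cfsg Cfsg.Agent.Lib.CoprimeAction Cfsg.Agent.Lib.CoprimeAction2
  Cfsg.Agent.Lib.SubgroupTools Cfsg.Agent.Lib.BrySec Cfsg.Agent.Lib.PLength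
open scoped commutatorElement

universe u v w

theorem relIndex_pPrimePCore {G : Type u} [Group G] [Finite G] :
    ∃ m, (pPrimeCore 2 G).relIndex (pPrimePCore 2 G) = 2 ^ m := by
  have h2f : Fact (Nat.Prime 2) := ⟨Nat.prime_two⟩
  rw [pPrimePCore, relIndex_comap_mk]
  exact IsPGroup.iff_card.mp (Cores.isPGroup_pCore 2 _)

theorem core_le {G : Type u} [Group G] [Finite G] : pPrimeCore 2 G ≤ pPrimePCore 2 G := by
  intro x hx
  rw [pPrimePCore, mem_comap,
    (QuotientGroup.eq_one_iff x).mpr hx |> (fun h => (h : QuotientGroup.mk' _ x = 1))]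
  exact one_mem _

theorem le_upper_two {G : Type u} [Group G] [Finite G] :
    pPrimePCore 2 G ≤ (upperPSeries 2 G (2 * 1)).1 := by
  have h2f : Fact (Nat.Prime 2) := ⟨Nat.prime_two⟩
  have h1 : pPrimeCore 2 G ≤ (upperPSeries 2 G 1).1 := by
    apply le_upper_even (n := 0) (by simp) (H := ⊥) bot_le inferInstance
    rw [Subgroup.relIndex_bot_left]
    exact H32Cores.pPrimeCore_coprime 2
  apply le_upper_odd (n := 1) (by decide) h1
  · rw [pPrimePCore]; infer_instance
  · exact relIndex_pPrimePCore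

theorem setup {G : Type u} [Group G] [Finite G] (hsol : Group.IsSolvable G) :
    ∃ P : Subgroup G, IsPGroup 2 P ∧ P ≤ pPrimePCore 2 G ∧
      pPrimePCore 2 G ≤ pPrimeCore 2 G ⊔ P ∧ centralizer (P : Set G) ≤ pPrimePCore 2 G ∧
      normalizer (P : Set G) ⊔ pPrimePCore 2 G = ⊤ := by
  have h2f : Fact (Nat.Prime 2) := ⟨Nat.prime_two⟩
  have hUn : (pPrimePCore 2 G).Normal := by rw [pPrimePCore]; infer_instance
  set U := pPrimePCore 2 G with hU
  set O := pPrimeCore 2 G with hO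
  have hOU : O ≤ U := core_le
  obtain ⟨S⟩ : Nonempty (Sylow 2 U) := inferInstance
  set P : Subgroup G := (S : Subgroup U).map U.subtype with hP
  obtain ⟨hPU, hP2, hPi⟩ := sylow_map_subtype_props S
  rw [← hP] at hPU hP2 hPi
  obtain ⟨m, hm⟩ := relIndex_pPrimePCore (G := G)
  rw [← hU, ← hO] at hm
  have hUOP : O ⊔ P = U := by
    apply Subgroup.eq_of_le_of_card_ge (sup_le hOU hPU)
    have h1 : (O ⊔ P).relIndex U ∣ O.relIndex U := Subgroup.relIndex_dvd_of_le_left U le_sup_left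
    have h2 : (O ⊔ P).relIndex U ∣ P.relIndex U := Subgroup.relIndex_dvd_of_le_left U le_sup_right
    have h3 : (O ⊔ P).relIndex U = 1 := by
      rw [hm] at h1
      have hc : Nat.Coprime (2 ^ m) (P.relIndex U) :=
        Nat.Coprime.pow_left m ((Nat.Prime.coprime_iff_not_dvd Nat.prime_two).2 hPi)
      exact Nat.eq_one_of_dvd_coprimes hc h1 h2
    exact Subgroup.card_le_of_le (Subgroup.relIndex_eq_one.1 h3)
  refine ⟨P, hP2, hPU, hUOP.ge, ?_, ?_⟩
  · have hmap : P.map (QuotientGroup.mk' O) = pCore 2 (G ⧸ O) := by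
      have h1 : (O ⊔ P).map (QuotientGroup.mk' O) = P.map (QuotientGroup.mk' O) := by
        rw [Subgroup.map_sup]
        have : O.map (QuotientGroup.mk' O) = ⊥ := by
          rw [Subgroup.map_eq_bot_iff, QuotientGroup.ker_mk']
        rw [this, bot_sup_eq]
      rw [← h1, hUOP, hU, pPrimePCore]
      exact Subgroup.map_comap_eq_self_of_surjective (QuotientGroup.mk'_surjective _) _
    intro x hx
    rw [hU, pPrimePCore, mem_comap]
    have hps : IsPSolvable 2 (G ⧸ O) := by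
      have : Group.IsSolvable G := hsol
      have : Group.IsSolvable (G ⧸ O) := inferInstance
      exact isPSolvable_of_isSolvable
    apply H32PSolv.centralizer_pCore_le hps (Cores.pPrimeCore_quotient_pPrimeCore 2 G)
    rw [← hmap, mem_centralizer_iff]
    rintro _ ⟨y, hy, rfl⟩
    rw [← map_mul, ← map_mul, mem_centralizer_iff.1 hx y hy]
  · exact Sylow.normalizer_sup_eq_top S

/-- the closed field. -/
abbrev KK : Type := AlgebraicClosure (ZMod 2)

instance : CharP KK 2 := charP_of_injective_algebraMap (algebraMap (ZMod 2) KK).injective 2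

/-- a faithful representation over `KK` in which the `2`-elements satisfy
`(g - 1) ^ (2 ^ (n + 1) - 1) = 0`. -/
def Hyp (n : ℕ) (Γ : Type u) [Group Γ] : Prop :=
  ∃ (W : Type u) (_ : AddCommGroup W) (_ : Module KK W) (_ : FiniteDimensional KK W)
    (H : Γ →* Module.End KK W), (∀ x, H x = 1 → x = 1) ∧
    ∀ g, (∃ j, g ^ 2 ^ j = 1) → (H g - 1) ^ (2 ^ (n + 1) - 1) = 0

/-- the subgroup generated by the elements of odd order of `L ⊓ N`. -/
def oddGen {G : Type u} [Group G] (L N : Subgroup G) : Subgroup G :=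
  closure {t | (t ∈ L ∧ t ∈ N) ∧ ∃ m, Odd m ∧ t ^ m = 1}

theorem oddGen_le {G : Type u} [Group G] (L N : Subgroup G) : oddGen L N ≤ N := by
  rw [oddGen, closure_le]
  intro t ht
  exact ht.1.2

theorem oddGen_norm {G : Type u} [Group G] (L N : Subgroup G) [hL : L.Normal] :
    N ≤ normalizer (oddGen L N : Set G) := by
  refine nle_of_conj fun n hn a ha => ?_
  have h1 : oddGen L N ≤ (oddGen L N).comap (MulAut.conj n).toMonoidHom := by
    rw [oddGen, closure_le]
    rintro t ⟨⟨h1, h2⟩, m, h3, h4⟩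
    change (MulAut.conj n).toMonoidHom t ∈ Subgroup.closure _
    apply Subgroup.subset_closure
    refine ⟨⟨hL.conj_mem t h1 n, mul_mem (mul_mem hn h2) (inv_mem hn)⟩, m, h3, ?_⟩
    change (n * t * n⁻¹) ^ m = 1
    rw [conj_pow, h4]; simp
  exact h1 ha

theorem oddGen_cop {G : Type u} [Group G] [Finite G] (L N : Subgroup G) (K : Subgroup G)
    (hK : IsPGroup 2 K) (hNK : N ≤ normalizer (K : Set G))
    (h : ⁅⁅K, oddGen L N⁆, oddGen L N⁆ = ⊥) : ⁅K, oddGen L N⁆ = ⊥ := by
  have h2f : Fact (Nat.Prime 2) := ⟨Nat.prime_two⟩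
  rw [commutator_comm, commutator_eq_bot_iff_le_centralizer, oddGen, closure_le]
  rintro t ⟨⟨h1, h2⟩, m, h3, h4⟩
  have hAL : zpowers t ≤ oddGen L N := by
    rw [zpowers_le]
    exact Subgroup.subset_closure ⟨⟨h1, h2⟩, m, h3, h4⟩
  have hAN : zpowers t ≤ N := by rwa [zpowers_le]
  have hsol : Group.IsSolvable K := by
    have : Group.IsNilpotent K := hK.isNilpotent
    infer_instance
  have hc : (Nat.card (zpowers t)).Coprime (Nat.card K) := by
    obtain ⟨a, ha⟩ := IsPGroup.iff_card.mp hK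
    rw [ha, Nat.card_zpowers]
    apply Nat.Coprime.pow_right
    rw [Nat.coprime_two_right]
    exact Odd.of_dvd_nat h3 (orderOf_dvd_of_pow_eq_one h4)
  have h5 := commutator_eq_bot_of_commutator_commutator (hAN.trans hNK) hc (Or.inr hsol) (by
    rw [← le_bot_iff, ← h]
    exact commutator_mono (commutator_mono le_rfl hAL) hAL)
  rw [commutator_comm, commutator_eq_bot_iff_le_centralizer, zpowers_le] at h5
  exact h5

theorem oddGen_ne {G : Type u} [Group G] [Finite G] {U P L : Subgroup G} [hU : U.Normal]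
    (hcen : centralizer (P : Set G) ≤ U) (hNU : normalizer (P : Set G) ⊔ U = ⊤) (hUL : U ≤ L)
    (hne : ¬ L ≤ U) (hodd : (U.relIndex L).Coprime 2) :
    ¬ oddGen L (normalizer (P : Set G)) ≤ centralizer (P : Set G) := by
  intro hcon
  apply hne
  intro x hx
  have h1 : x ∈ U ⊔ normalizer (P : Set G) := by rw [sup_comm, hNU]; trivial
  have h2 : normalizer (P : Set G) ≤ normalizer (U : Set G) := by
    rw [Subgroup.normalizer_eq_top_iff.2 hU]; exact le_top
  obtain ⟨u, hu, n, hn, rfl⟩ := (mem_sup_of_le_normalizer h2).1 h1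
  have hnL : n ∈ L := by
    have := mul_mem (inv_mem (hUL hu)) hx
    rwa [inv_mul_cancel_left] at this
  obtain ⟨a, m, hm, hak⟩ := Nat.exists_eq_pow_mul_and_not_dvd (n := orderOf n) (orderOf_pos n).ne' 2 (by norm_num)
  have h3 : n ^ 2 ^ a ∈ U := by
    apply hcen
    apply hcon
    apply Subgroup.subset_closure
    refine ⟨⟨pow_mem hnL _, pow_mem hn _⟩, m, ?_, ?_⟩
    · rw [← Nat.not_even_iff_odd, even_iff_two_dvd]; exact hm
    · rw [← pow_mul, ← hak, pow_orderOf_eq_one]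
  have h4 : n ^ (U.relIndex L) ∈ U := by
    have := (U.subgroupOf L).pow_index_mem (⟨n, hnL⟩ : L)
    exact this
  exact mul_mem hu (mem_of_pow_mem_coprime (hodd.pow_right a) h4 h3)

theorem hyp_range {G : Type u} [Group G] [Finite G] {M : Type u} [AddCommGroup M]
    [Module (ZMod 2) M] [Finite M] (ρ : Representation (ZMod 2) G M) {n : ℕ}
    (hnil : ∀ g : G, (∃ j, g ^ 2 ^ j = 1) → (ρ g - 1) ^ (2 ^ (n + 1) - 1) = 0) :
    Hyp n (MonoidHom.range (MonoidHom.toHomUnits (ρ : G →* Module.End (ZMod 2) M))) := by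
  set γ := MonoidHom.toHomUnits (ρ : G →* Module.End (ZMod 2) M) with hγ
  have hγρ : ∀ g, ((γ g : (Module.End (ZMod 2) M)ˣ) : Module.End (ZMod 2) M) = ρ g := fun g => rfl
  have hinj : Function.Injective (Module.End.baseChangeHom (ZMod 2) KK M) :=
    LinearMap.baseChangeHom_injective (ZMod 2) M KK
  set B := Module.End.baseChangeHom (ZMod 2) KK M with hB
  have hfd : FiniteDimensional (ZMod 2) M := Module.Finite.of_finite
  refine ⟨TensorProduct (ZMod 2) KK M, inferInstance, inferInstance, inferInstance,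
    B.toMonoidHom.comp ((Units.coeHom _).comp γ.range.subtype), ?_, ?_⟩
  · intro x hx
    apply Subtype.ext
    apply Units.ext
    apply hinj
    rw [Subgroup.coe_one, Units.val_one, map_one]
    exact hx
  · rintro ⟨_, y, rfl⟩ ⟨j, hj⟩
    have hj' : γ y ^ 2 ^ j = 1 := congrArg Subtype.val hj
    obtain ⟨z, hz, a, ha⟩ := lift_two γ.rangeRestrict γ.rangeRestrict_surjective hj
    have h1 := hnil z ⟨a, ha⟩
    have h2 : (B.toMonoidHom.comp ((Units.coeHom _).comp γ.range.subtype)) ⟨γ y, ⟨y, rfl⟩⟩ = B (ρ z) := by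
      rw [← hz]
      rfl
    rw [h2, ← map_one B, ← map_sub, ← map_pow, h1, map_zero]

/-- length of a quotient. -/
theorem pLengthLE_of_ker {p : ℕ} [hp : Fact p.Prime] {N A B : Type*} [Group N] [Group A] [Group B] [Finite N]
    (f : N →* A) (g : N →* B) (hg : Function.Surjective g) (hle : f.ker ≤ g.ker) {k : ℕ}
    (h : PLengthLE p k f.range) : PLengthLE p k B := by
  have hfin : Finite f.range := Finite.of_surjective _ f.rangeRestrict_surjective
  have h1 : PLengthLE p k (N ⧸ f.ker) :=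
    pLengthLE_equiv h (QuotientGroup.quotientKerEquivRange f).symm
  refine pLengthLE_map h1 (QuotientGroup.lift f.ker g hle) ?_
  intro b
  obtain ⟨a, rfl⟩ := hg b
  exact ⟨QuotientGroup.mk a, rfl⟩

theorem good {G : Type u} [Group G] [Finite G] (hsol : Group.IsSolvable G)
    (hO2 : pCore 2 G = ⊥) {n : ℕ} (hH : Hyp (n + 1) G)
    (IH : ∀ (Γ : Type u) [Group Γ] [Finite Γ], Group.IsSolvable Γ → pCore 2 Γ = ⊥ → Hyp n Γ →
      PLengthLE 2 n Γ)
    {L : Subgroup G} [hLn : L.Normal] (hUL : pPrimePCore 2 G ≤ L)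
    (hne : ¬ L ≤ pPrimePCore 2 G) (hodd : ((pPrimePCore 2 G).relIndex L).Coprime 2) :
    ∃ K : Subgroup G, ∃ _ : K.Normal, pPrimePCore 2 G ≤ K ∧ ¬ L ≤ K ∧ PLengthLE 2 n (G ⧸ K) := by
  have h2f : Fact (Nat.Prime 2) := ⟨Nat.prime_two⟩
  obtain ⟨P, hP2, hPU, hUOP, hcen, hNU⟩ := setup hsol
  have hUn : (pPrimePCore 2 G).Normal := by rw [pPrimePCore]; infer_instance
  set U := pPrimePCore 2 G with hU
  set O := pPrimeCore 2 G with hO
  have hOU : O ≤ U := core_le
  set N := normalizer (P : Set G) with hN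
  have hPN : P ≤ N := le_normalizer
  obtain ⟨C, Z₁, hCP, hNC, hZC, hNZ, hCL, hCPZ, hsq, hmax, hstr⟩ := exists_crit hP2 hPN
    (le_refl (normalizer (P : Set G))) (oddGen_le L N) (oddGen_norm L N) (oddGen_cop L N)
    (oddGen_ne hcen hNU hUL hne hodd)
  have hCN : C ≤ N := hCP.trans hPN
  obtain ⟨M, i1, i2, i3, ρ, hnt, hirr, hone, hnilρ⟩ := exists_rep hCP hPN hNC hNZ (oddGen_le L N)
    hCL hCPZ hsq hmax
  obtain ⟨W, j1, j2, j3, H, hinj, hnil⟩ := hH
  have hnil1 : ∀ g : N, (∃ j, g ^ 2 ^ j = 1) → (ρ g - 1) ^ (2 ^ (n + 1) - 1) = 0 := by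
    intro g hg
    apply hnilρ g (n + 1)
    intro y hy
    have := BryFin.sigma_mem hsol hO2 H hinj (l := n + 2) hnil (hP2.to_le hCP) hCN hNC hmax hstr
      g.2 (g := (g : G)) (y := y) (by
        obtain ⟨j, hj⟩ := hg
        exact ⟨j, congrArg Subtype.val hj⟩) hy
    exact this
  have hsolN : Group.IsSolvable N := by
    have := hsol
    infer_instance
  set γ := MonoidHom.toHomUnits (ρ : N →* Module.End (ZMod 2) M) with hγ
  have hγρ : ∀ g, ((γ g : (Module.End (ZMod 2) M)ˣ) : Module.End (ZMod 2) M) = ρ g := fun g => rfl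
  have hfinr : Finite γ.range := Finite.of_surjective _ γ.rangeRestrict_surjective
  have hlen : PLengthLE 2 n γ.range := by
    apply IH
    · exact Group.isSolvable_of_surjective γ.rangeRestrict_surjective
    · exact pCore_range ρ hirr
    · exact hyp_range ρ hnil1
  -- `N ⊓ U` acts trivially on `C / Z₁`
  have hker1 : ∀ g : N, g ∈ γ.ker ↔ ∀ c ∈ C, (g : G) * c * (g : G)⁻¹ * c⁻¹ ∈ Z₁ := by
    intro g
    rw [MonoidHom.mem_ker, ← hone, Units.ext_iff, hγρ, Units.val_one]
  have hPker : ∀ g (hg : g ∈ P), (⟨g, hPN hg⟩ : N) ∈ γ.ker := by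
    intro g hg
    rw [hker1]
    intro c hc
    have h1 : ⁅g, c⁆ ∈ ⁅P, C⁆ := commutator_mem_commutator hg hc
    rw [commutator_comm] at h1
    exact hCPZ h1
  have hOP : O ⊓ P = ⊥ := by
    have h1 := H32Cores.pPrimeCore_coprime (G := G) 2
    obtain ⟨a, ha⟩ := IsPGroup.iff_card.mp hP2
    apply inf_eq_bot_of_coprime'
    rw [ha]
    exact Nat.Coprime.pow_right a h1
  have hUker : ∀ g (hg : g ∈ N), g ∈ U → (⟨g, hg⟩ : N) ∈ γ.ker := by
    intro g hg hgU
    have hPO : P ≤ normalizer (O : Set G) := by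
      rw [Subgroup.normalizer_eq_top_iff.2 (inferInstance : O.Normal)]; exact le_top
    obtain ⟨o, ho, p, hp, rfl⟩ := (mem_sup_of_le_normalizer hPO).1 (hUOP hgU)
    have hoN : o ∈ N := by
      have := mul_mem hg (inv_mem (hPN hp))
      rwa [mul_inv_cancel_right] at this
    have e : (⟨o * p, hg⟩ : N) = ⟨o, hoN⟩ * ⟨p, hPN hp⟩ := rfl
    rw [e]
    apply mul_mem _ (hPker p hp)
    rw [hker1]
    intro c hc
    have h1 : o * c * o⁻¹ * c⁻¹ ∈ O ⊓ P := by
      rw [mem_inf]
      constructor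
      · have h2 := (inferInstance : O.Normal).conj_mem o⁻¹ (inv_mem ho) c
        have h3 := mul_mem ho h2
        have e2 : o * c * o⁻¹ * c⁻¹ = o * (c * o⁻¹ * c⁻¹) := by group
        rw [e2]; exact h3
      · exact P.mul_mem ((mem_normalizer_iff.1 hoN c).1 (hCP hc)) (P.inv_mem (hCP hc))
    rw [hOP, Subgroup.mem_bot] at h1
    change o * c * o⁻¹ * c⁻¹ ∈ Z₁
    rw [h1]
    exact one_mem _
  set K₁ : Subgroup G := γ.ker.map N.subtype with hK₁
  have hK₁N : K₁ ≤ N := map_subtype_le _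
  have hNK₁ : N ≤ normalizer (K₁ : Set G) := by
    refine nle_of_conj fun x hx a ha => ?_
    obtain ⟨b, hb, rfl⟩ := ha
    exact ⟨⟨x, hx⟩ * b * ⟨x, hx⟩⁻¹, (inferInstance : γ.ker.Normal).conj_mem b hb ⟨x, hx⟩, rfl⟩
  set K : Subgroup G := U ⊔ K₁ with hK
  have hNUn : N ≤ normalizer (U : Set G) := by
    rw [Subgroup.normalizer_eq_top_iff.2 hUn]; exact le_top
  have hKn : K.Normal := by
    rw [← Subgroup.normalizer_eq_top_iff, eq_top_iff, ← hNU]
    apply sup_le
    · refine nle_of_conj fun x hx a ha => ?_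
      obtain ⟨b, hb, c, hc, rfl⟩ := (mem_sup_of_le_normalizer (hK₁N.trans hNUn)).1 ha
      have e : x * (b * c) * x⁻¹ = (x * b * x⁻¹) * (x * c * x⁻¹) := by group
      rw [e]
      exact mul_mem (mem_sup_left (hUn.conj_mem b hb x))
        (mem_sup_right ((mem_normalizer_iff.1 (hNK₁ hx) c).1 hc))
    · exact le_sup_left.trans le_normalizer
  refine ⟨K, hKn, le_sup_left, ?_, ?_⟩
  · intro hLK
    apply hCL
    have h1 : oddGen L N ≤ K₁ := by
      rw [oddGen, closure_le]
      rintro t ⟨⟨h1, h2⟩, -⟩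
      obtain ⟨u, hu, a, ha, hua⟩ := (mem_sup_of_le_normalizer (hK₁N.trans hNUn)).1 (hLK h1)
      have hu' : u ∈ N := by
        have := mul_mem h2 (inv_mem (hK₁N ha))
        rwa [← hua, mul_inv_cancel_right] at this
      rw [SetLike.mem_coe, ← hua]
      exact mul_mem ⟨_, hUker u hu' hu, rfl⟩ ha
    rw [commutator_le]
    intro c hc t ht
    obtain ⟨b, hb, rfl⟩ := h1 ht
    have h2 := inv_mem ((hker1 b).1 hb c hc)
    have e : ⁅c, N.subtype b⁆ = ((b : G) * c * (b : G)⁻¹ * c⁻¹)⁻¹ := by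
      rw [commutatorElement_def]
      change c * (b : G) * c⁻¹ * (b : G)⁻¹ = _
      group
    rw [e]; exact h2
  · refine pLengthLE_of_ker γ ((QuotientGroup.mk' K).comp N.subtype) ?_ ?_ hlen
    · intro b
      obtain ⟨x, rfl⟩ := QuotientGroup.mk'_surjective K b
      have h1 : x ∈ U ⊔ N := by rw [sup_comm, hNU]; trivial
      obtain ⟨k, hk, u, hu, rfl⟩ := (mem_sup_of_le_normalizer' hNUn).1 h1
      refine ⟨⟨k, hk⟩, ?_⟩
      change QuotientGroup.mk' K k = QuotientGroup.mk' K (k * u)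
      rw [map_mul]
      have : QuotientGroup.mk' K u = 1 := (QuotientGroup.eq_one_iff u).2 (mem_sup_left hu)
      rw [this, mul_one]
    · intro x hx
      rw [MonoidHom.mem_ker]
      exact (QuotientGroup.eq_one_iff (x : G)).2 (mem_sup_right ⟨x, hx, rfl⟩)

theorem odd_above {G : Type u} [Group G] [Finite G] (hsol : Group.IsSolvable G) {K₀ : Subgroup G}
    [hK₀ : K₀.Normal] (hUK : pPrimePCore 2 G ≤ K₀) (hne : K₀ ≠ pPrimePCore 2 G) :
    ∃ L : Subgroup G, ∃ _ : L.Normal, pPrimePCore 2 G ≤ L ∧ ¬ L ≤ pPrimePCore 2 G ∧ L ≤ K₀ ∧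
      ((pPrimePCore 2 G).relIndex L).Coprime 2 := by
  have h2f : Fact (Nat.Prime 2) := ⟨Nat.prime_two⟩
  have hUn : (pPrimePCore 2 G).Normal := by rw [pPrimePCore]; infer_instance
  obtain ⟨m₀, hm₀⟩ := relIndex_pPrimePCore (G := G)
  have hUdef : pPrimePCore 2 G =
    (pCore 2 (G ⧸ pPrimeCore 2 G)).comap (QuotientGroup.mk' (pPrimeCore 2 G)) := rfl
  set U := pPrimePCore 2 G with hU
  set O := pPrimeCore 2 G with hO
  have hOU : O ≤ U := core_le
  have hA : K₀.map (QuotientGroup.mk' U) ≠ ⊥ := by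
    intro h
    apply hne
    apply le_antisymm _ hUK
    rwa [Subgroup.map_eq_bot_iff, QuotientGroup.ker_mk'] at h
  obtain ⟨A, ⟨hAn, hA1, hAm⟩, hAK⟩ := Subnormal.exists_isMinNormal_le (K₀.map (QuotientGroup.mk' U))
    (hK₀.map _ (QuotientGroup.mk'_surjective U)) hA
  have hsolQ : Group.IsSolvable (G ⧸ U) := by
    have := hsol
    infer_instance
  have hsolA : Group.IsSolvable A := inferInstance
  obtain ⟨-, r, hr, hrp⟩ := Fitting.minimal_normal_solvable hA1 hsolA (by
    intro M hM hMN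
    by_cases h1 : M = ⊥
    · exact Or.inl h1
    · exact Or.inr (hAm M hM hMN h1))
  have hrf : Fact r.Prime := ⟨hr⟩
  have hAr : IsPGroup r A := by
    intro x
    refine ⟨1, ?_⟩
    rw [pow_one]
    exact Subtype.ext (hrp x x.2)
  obtain ⟨m, hm⟩ := IsPGroup.iff_card.mp hAr
  set L := A.comap (QuotientGroup.mk' U) with hL
  have hUL : U ≤ L := by
    intro x hx
    rw [hL, mem_comap, (QuotientGroup.eq_one_iff x).mpr hx |> (fun h => (h : QuotientGroup.mk' _ x = 1))]
    exact one_mem _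
  have hrel : U.relIndex L = r ^ m := by rw [hL, relIndex_comap_mk, hm]
  have hLU : ¬ L ≤ U := by
    intro h
    apply hA1
    have h1 : Nat.card A = 1 := by
      rw [← relIndex_comap_mk U A, ← hL, le_antisymm h hUL, Subgroup.relIndex_self]
    exact Subgroup.card_eq_one.mp h1
  refine ⟨L, inferInstance, hUL, hLU, ?_, ?_⟩
  · rw [← Subgroup.comap_map_eq_self (f := QuotientGroup.mk' U) (H := K₀)
      (by rw [QuotientGroup.ker_mk']; exact hUK)]
    exact comap_mono hAK
  · rw [hrel]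
    apply Nat.Coprime.pow_left m
    apply (Nat.coprime_primes hr Nat.prime_two).2
    rintro rfl
    apply hLU
    rw [hUdef, ← Subgroup.map_le_iff_le_comap]
    apply Cores.le_pCore ((inferInstance : L.Normal).map _ (QuotientGroup.mk'_surjective _))
    have h1 := Subgroup.relIndex_mul_relIndex O U L hOU hUL
    rw [hm₀, hrel, ← pow_add] at h1
    apply IsPGroup.of_card (n := m₀ + m)
    rw [H32PSolv.card_map_mk, ← h1]

theorem residual {G : Type u} [Group G] [Finite G] (hsol : Group.IsSolvable G) {n : ℕ}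
    (hgood : ∀ {L : Subgroup G} [L.Normal], pPrimePCore 2 G ≤ L →
      ¬ L ≤ pPrimePCore 2 G → ((pPrimePCore 2 G).relIndex L).Coprime 2 →
      ∃ K : Subgroup G, ∃ _ : K.Normal, pPrimePCore 2 G ≤ K ∧ ¬ L ≤ K ∧ PLengthLE 2 n (G ⧸ K)) :
    PLengthLE 2 (n + 1) G := by
  have h2f : Fact (Nat.Prime 2) := ⟨Nat.prime_two⟩
  have hUn : (pPrimePCore 2 G).Normal := by rw [pPrimePCore]; infer_instance
  obtain ⟨K₀, ⟨hK₀n, hUK, hK₀l⟩, hmin⟩ := Set.Finite.exists_minimalFor
    (fun X : Subgroup G => Nat.card X)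
    {X : Subgroup G | ∃ _ : X.Normal, pPrimePCore 2 G ≤ X ∧ PLengthLE 2 n (G ⧸ X)}
    (Set.toFinite _) ⟨⊤, inferInstance, le_top, by
      apply pLengthLE_mono (Nat.zero_le n)
      rw [pLengthLE_zero_iff]
      have : Subsingleton (G ⧸ (⊤ : Subgroup G)) := QuotientGroup.subsingleton_quotient_top
      rw [Nat.card_of_subsingleton (1 : G ⧸ (⊤ : Subgroup G))]
      exact Nat.coprime_one_left 2⟩
  have hKU : K₀ = pPrimePCore 2 G := by
    by_contra hne
    obtain ⟨L, hLn, hUL, hLU, hLK, hodd⟩ := odd_above hsol hUK hne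
    obtain ⟨K, hKn, hUK', hLK', hKl⟩ := hgood hUL hLU hodd
    have hmem : PLengthLE 2 n (G ⧸ (K₀ ⊓ K)) := by
      refine pLengthLE_of_inf_ker_eq_bot
        (QuotientGroup.lift (K₀ ⊓ K) (QuotientGroup.mk' K₀) (by
          intro x hx
          exact (QuotientGroup.eq_one_iff x).2 hx.1))
        (QuotientGroup.lift (K₀ ⊓ K) (QuotientGroup.mk' K) (by
          intro x hx
          exact (QuotientGroup.eq_one_iff x).2 hx.2)) ?_ hK₀l hKl
      rw [eq_bot_iff]
      rintro x ⟨hx1, hx2⟩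
      obtain ⟨y, rfl⟩ := QuotientGroup.mk_surjective x
      rw [Subgroup.mem_bot]
      apply (QuotientGroup.eq_one_iff y).2
      exact ⟨(QuotientGroup.eq_one_iff y).1 hx1, (QuotientGroup.eq_one_iff y).1 hx2⟩
    have h1 := hmin (j := K₀ ⊓ K) ⟨inferInstance, le_inf hUK hUK', hmem⟩
      (Subgroup.card_le_of_le inf_le_left)
    have h2 := Subgroup.eq_of_le_of_card_ge (inf_le_left : K₀ ⊓ K ≤ K₀) h1
    apply hLK'
    have h3 : K₀ ≤ K := by rw [← h2]; exact inf_le_right
    exact hLK.trans h3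
  subst hKU
  rw [add_comm]
  exact pLengthLE_add_of_le (a := 1) _ le_upper_two hK₀l

theorem main : ∀ (n : ℕ) (Γ : Type u) [Group Γ] [Finite Γ], Group.IsSolvable Γ → pCore 2 Γ = ⊥ →
    Hyp n Γ → PLengthLE 2 n Γ := by
  have h2f : Fact (Nat.Prime 2) := ⟨Nat.prime_two⟩
  intro n
  induction n with
  | zero =>
    intro Γ _ _ hsol hO2 ⟨W, i1, i2, i3, H, hinj, hnil⟩
    rw [pLengthLE_zero_iff, Nat.coprime_comm, Nat.Prime.coprime_iff_not_dvd Nat.prime_two]
    intro hdvd
    obtain ⟨x, hx⟩ := exists_prime_orderOf_dvd_card' 2 hdvd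
    have h1 := hnil x ⟨1, by rw [pow_one, ← hx, pow_orderOf_eq_one]⟩
    rw [show 2 ^ (0 + 1) - 1 = 1 from rfl, pow_one, sub_eq_zero] at h1
    rw [hinj x h1, orderOf_one] at hx
    exact absurd hx (by norm_num)
  | succ n ih =>
    intro Γ _ _ hsol hO2 hH
    exact residual hsol fun {L} _ h1 h2 h3 => good hsol hO2 hH ih h1 h2 h3

end Cfsg.Agent.Lib.BryMain
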