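import Cfsg.Agent.Lib.Weights
import Cfsg.Agent.Lib.CoprimeAction2

/-!
Weights of a subgroup of a group acting on a vector space, and their stabilizers (helper59).
-/

set_option autoImplicit false

namespace Cfsg.Agent.Lib.WtGroup

open Module Subgroup Finset Cfsg.Agent.Lib.Weights

universe u v w

variable {Γ : Type u} [Group Γ] {k : Type v} {W : Type w} [Field k] [AddCommGroup W] [Module k W]

/-- `v` is an eigenvector of all elements of `L` with eigenvalues `χ`. -/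
def IsWt (H : Γ →* Module.End k W) (L : Subgroup Γ) (χ : Γ → k) (v : W) : Prop :=
  ∀ x ∈ L, H x v = χ x • v

/-- the stabilizer of the weight `χ` of `L` in the normalizer of `L` -/
def stab (L : Subgroup Γ) (χ : Γ → k) : Subgroup Γ where
  carrier := {g | g ∈ normalizer (L : Set Γ) ∧ ∀ x ∈ L, χ (g⁻¹ * x * g) = χ x}
  one_mem' := ⟨one_mem _, by simp⟩
  mul_mem' := by
    rintro a b ⟨ha, ha'⟩ ⟨hb, hb'⟩
    refine ⟨mul_mem ha hb, fun x hx => ?_⟩
    have h1 : a⁻¹ * x * a ∈ L := by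
      have := (mem_normalizer_iff.mp (inv_mem ha) x).mp hx
      rwa [inv_inv] at this
    have h2 : (a * b)⁻¹ * x * (a * b) = b⁻¹ * (a⁻¹ * x * a) * b := by group
    rw [h2, hb' _ h1, ha' x hx]
  inv_mem' := by
    rintro a ⟨ha, ha'⟩
    refine ⟨inv_mem ha, fun x hx => ?_⟩
    have h1 : a * x * a⁻¹ ∈ L := (mem_normalizer_iff.mp ha x).mp hx
    rw [inv_inv, ← ha' _ h1]
    congr 1
    group

omit [Field k] in
theorem mem_stab {L : Subgroup Γ} {χ : Γ → k} {g : Γ} :
    g ∈ stab L χ ↔ g ∈ normalizer (L : Set Γ) ∧ ∀ x ∈ L, χ (g⁻¹ * x * g) = χ x := Iff.rfl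

/-- translate of a weight -/
def tw (g : Γ) (χ : Γ → k) : Γ → k := fun x => χ (g⁻¹ * x * g)

omit [Field k] in
theorem tw_apply (g : Γ) (χ : Γ → k) (x : Γ) : tw g χ x = χ (g⁻¹ * x * g) := rfl

theorem conj_mem_of_normalizer {L : Subgroup Γ} {g x : Γ} (hg : g ∈ normalizer (L : Set Γ))
    (hx : x ∈ L) : g⁻¹ * x * g ∈ L := by
  have := (mem_normalizer_iff.mp (inv_mem hg) x).mp hx
  rwa [inv_inv] at this

theorem isWt_tw (H : Γ →* Module.End k W) {L : Subgroup Γ} {χ : Γ → k} {v : W}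
    (hv : IsWt H L χ v) {g : Γ} (hg : g ∈ normalizer (L : Set Γ)) :
    IsWt H L (tw g χ) (H g v) := by
  intro x hx
  have h1 : x * g = g * (g⁻¹ * x * g) := by group
  rw [← Module.End.mul_apply, ← map_mul, h1, map_mul, Module.End.mul_apply,
    hv _ (conj_mem_of_normalizer hg hx), map_smul, tw_apply]

theorem mem_stab_tw {L : Subgroup Γ} {χ : Γ → k} {g c : Γ} (hg : g ∈ normalizer (L : Set Γ)) :
    c ∈ stab L (tw g χ) ↔ g⁻¹ * c * g ∈ stab L χ := by
  constructor
  · rintro ⟨h1, h2⟩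
    refine ⟨mul_mem (mul_mem (inv_mem hg) h1) hg, fun x hx => ?_⟩
    have h3 : g * x * g⁻¹ ∈ L := (mem_normalizer_iff.mp hg x).mp hx
    have h4 := h2 _ h3
    rw [tw_apply, tw_apply] at h4
    have e1 : (g⁻¹ * c * g)⁻¹ * x * (g⁻¹ * c * g) = g⁻¹ * (c⁻¹ * (g * x * g⁻¹) * c) * g := by group
    have e2 : g⁻¹ * (g * x * g⁻¹) * g = x := by group
    rw [e1, h4, e2]
  · rintro ⟨h1, h2⟩
    have h0 : c = g * (g⁻¹ * c * g) * g⁻¹ := by group
    refine ⟨by rw [h0]; exact mul_mem (mul_mem hg h1) (inv_mem hg), fun x hx => ?_⟩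
    have h3 : g⁻¹ * x * g ∈ L := conj_mem_of_normalizer hg hx
    have h4 := h2 _ h3
    rw [tw_apply, tw_apply, ← h4]
    congr 1
    group

/-- multiplicativity of weights of nonzero vectors -/
theorem isWt_mul {H : Γ →* Module.End k W} {L : Subgroup Γ} {χ : Γ → k} {v : W}
    (hv : IsWt H L χ v) (hv0 : v ≠ 0) {x y : Γ} (hx : x ∈ L) (hy : y ∈ L) :
    χ (x * y) = χ x * χ y := by
  have h1 := hv _ (mul_mem hx hy)
  rw [map_mul, Module.End.mul_apply, hv y hy, map_smul, hv x hx, smul_smul] at h1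
  have h2 : (χ y * χ x - χ (x * y)) • v = 0 := by rw [sub_smul, h1, sub_self]
  rcases smul_eq_zero.mp h2 with h3 | h3
  · rw [mul_comm]; exact (sub_eq_zero.mp h3).symm
  · exact absurd h3 hv0

theorem isWt_one {H : Γ →* Module.End k W} {L : Subgroup Γ} {χ : Γ → k} {v : W}
    (hv : IsWt H L χ v) (hv0 : v ≠ 0) : χ 1 = 1 := by
  have h1 := hv 1 (one_mem _)
  rw [map_one, Module.End.one_apply] at h1
  have h2 : (1 - χ 1) • v = 0 := by rw [sub_smul, one_smul, ← h1, sub_self]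
  rcases smul_eq_zero.mp h2 with h3 | h3
  · exact (sub_eq_zero.mp h3).symm
  · exact absurd h3 hv0

theorem isWt_inv {H : Γ →* Module.End k W} {L : Subgroup Γ} {χ : Γ → k} {v : W}
    (hv : IsWt H L χ v) (hv0 : v ≠ 0) {x : Γ} (hx : x ∈ L) : χ x * χ x⁻¹ = 1 := by
  rw [← isWt_mul hv hv0 hx (inv_mem hx), mul_inv_cancel, isWt_one hv hv0]

/-- if `∑_{a ∈ A} a v = 0` then the same holds for the stabilizer of the weight of `v` -/
theorem sum_stab_eq_zero (H : Γ →* Module.End k W) {L A : Subgroup Γ} [Fintype A]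
    (hA : A ≤ normalizer (L : Set Γ)) {χ : Γ → k} {v : W} (hv : IsWt H L χ v)
    (hsum : ∑ a : A, H (a : Γ) v = 0) [DecidablePred fun a : A => (a : Γ) ∈ stab L χ] :
    ∑ a ∈ (univ : Finset A).filter (fun a : A => (a : Γ) ∈ stab L χ), H (a : Γ) v = 0 := by
  classical
  have h1 := sum_filter_eq_zero (fun x : L => H (x : Γ)) (fun (a : A) (x : L) => tw (a : Γ) χ x)
    (fun a : A => H (a : Γ) v) (fun a x => isWt_tw H hv (hA a.2) x x.2) hsum
    (fun x : L => χ x)
  rw [← h1]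
  refine Finset.sum_congr ?_ fun _ _ => rfl
  ext a
  simp only [Finset.mem_filter, Finset.mem_univ, true_and]
  constructor
  · rintro ⟨_, h2⟩
    funext x
    exact h2 x x.2
  · intro h2
    exact ⟨hA a.2, fun x hx => congrFun h2 ⟨x, hx⟩⟩

/-- if `∑_{i < p} b^i v = 0` then `b` fixes the weight of `v` -/
theorem fixed_of_prime (H : Γ →* Module.End k W) {L : Subgroup Γ} {b : Γ}
    (hb : b ∈ normalizer (L : Set Γ)) {p : ℕ} (hp : p.Prime) (hbp : b ^ p = 1) {χ : Γ → k} {v : W}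
    (hv : IsWt H L χ v) (hv0 : v ≠ 0) (hsum : ∑ i ∈ range p, H (b ^ i) v = 0) :
    b ∈ stab L χ := by
  classical
  by_contra hcon
  have h1 : ∑ i : Fin p, H (b ^ (i : ℕ)) v = 0 := by
    rw [← hsum, Finset.sum_range]
  have h2 := sum_filter_eq_zero (fun x : L => H (x : Γ))
    (fun (i : Fin p) (x : L) => tw (b ^ (i : ℕ)) χ x)
    (fun i : Fin p => H (b ^ (i : ℕ)) v)
    (fun i x => isWt_tw H hv (pow_mem hb _) x x.2) h1 (fun x : L => χ x)
  have h3 : (univ.filter fun i : Fin p => (fun x : L => tw (b ^ (i : ℕ)) χ x) = fun x : L => χ x)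
      = {⟨0, hp.pos⟩} := by
    ext i
    simp only [Finset.mem_filter, Finset.mem_univ, true_and, Finset.mem_singleton]
    constructor
    · intro hi
      by_contra hi0
      have hi0' : (i : ℕ) ≠ 0 := fun h => hi0 (Fin.ext h)
      have h4 : b ^ (i : ℕ) ∈ stab L χ := ⟨pow_mem hb _, fun x hx => congrFun hi ⟨x, hx⟩⟩
      have hcop : Nat.Coprime (i : ℕ) p := by
        rw [Nat.coprime_comm, Nat.Prime.coprime_iff_not_dvd hp]
        exact fun hd => absurd (Nat.le_of_dvd (Nat.pos_of_ne_zero hi0') hd) (not_le.2 i.2)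
      obtain ⟨m, hm⟩ := Nat.exists_mul_mod_eq_one_of_coprime hcop hp.one_lt
      apply hcon
      have h5 : (b ^ (i : ℕ)) ^ m = b := by
        have h8 : (i : ℕ) * m ≡ 1 [MOD p] := by
          rw [Nat.ModEq, hm.2, Nat.mod_eq_of_lt hp.one_lt]
        have h6 := h8.of_dvd (orderOf_dvd_of_pow_eq_one hbp)
        rw [← pow_mul, pow_eq_pow_iff_modEq.mpr h6, pow_one]
      rw [← h5]
      exact pow_mem h4 _
    · rintro rfl
      funext x
      simp [tw]
  rw [h3, Finset.sum_singleton, pow_zero, map_one] at h2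
  exact hv0 h2

end Cfsg.Agent.Lib.WtGroup
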