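import Cfsg.Agent.Lib.SecRep59
import Cfsg.Agent.Lib.WtGroup

/-!
The symplectic section attached to a linear character of the centre of a group of class two
(helper59).
-/

set_option autoImplicit false

namespace Cfsg.Agent.Lib.SympSec

open Module Subgroup Cfsg.Agent.Lib.WielandtFix Cfsg.Agent.Lib.SympFix Cfsg.Agent.Lib.WtGroup
open scoped commutatorElement

universe u v w

section Basic

variable {Γ : Type u} [Group Γ] {k : Type v} [Field k]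

/-- the radical of the commutator form attached to `μ` -/
theorem radical_props {Q Z X R : Subgroup Γ} {μ : Γ → k} (hZQ : Z ≤ Q)
    (hZc : ∀ z ∈ Z, ∀ y ∈ Q, Commute y z) (hDZ : ⁅Q, Q⁆ ≤ Z) (hμ1 : μ 1 = 1)
    (hXQ : X ≤ normalizer (Q : Set Γ)) (hXμ : X ≤ stab Z μ)
    (hR : ∀ x, x ∈ R ↔ x ∈ Q ∧ ∀ y ∈ Q, μ ⁅x, y⁆ = 1) :
    Z ≤ R ∧ Q ≤ normalizer (R : Set Γ) ∧ X ≤ normalizer (R : Set Γ) := by
  have hcomZ : ∀ x ∈ Q, ∀ y ∈ Q, ⁅x, y⁆ ∈ Z := fun x hx y hy => hDZ (commutator_mem_commutator hx hy)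
  have hRQ : R ≤ Q := fun x hx => ((hR x).1 hx).1
  have hZR : Z ≤ R := by
    intro z hz
    rw [hR]
    refine ⟨hZQ hz, fun y hy => ?_⟩
    rw [(commutatorElement_eq_one_iff_commute).2 (hZc z hz y hy).symm, hμ1]
  refine ⟨hZR, ?_, ?_⟩
  · rw [le_normalizer_iff]
    intro g hg x hx
    have h2 : g * x * g⁻¹ = ⁅g, x⁆ * x := by rw [commutatorElement_def]; group
    rw [h2]
    exact mul_mem (hZR (hcomZ g hg x (hRQ hx))) hx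
  · rw [le_normalizer_iff]
    intro g hg x hx
    rw [hR]
    refine ⟨(le_normalizer_iff.1 hXQ) g hg x (hRQ hx), fun y hy => ?_⟩
    have h1 : g⁻¹ * y * g ∈ Q := conj_mem_of_normalizer (hXQ hg) hy
    have h2 : g⁻¹ * ⁅g * x * g⁻¹, y⁆ * g = ⁅x, g⁻¹ * y * g⁆ := by
      simp only [commutatorElement_def]; group
    rw [← (hXμ hg).2 _ (hcomZ _ ((le_normalizer_iff.1 hXQ) g hg x (hRQ hx)) y hy), h2]
    exact ((hR x).1 hx).2 _ h1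

/-- existence of the radical as a subgroup -/
theorem exists_radical {Q Z : Subgroup Γ} {μ : Γ → k}
    (hZc : ∀ z ∈ Z, ∀ y ∈ Q, Commute y z) (hDZ : ⁅Q, Q⁆ ≤ Z) (hμ1 : μ 1 = 1)
    (hμm : ∀ x ∈ Z, ∀ y ∈ Z, μ (x * y) = μ x * μ y) :
    ∃ R : Subgroup Γ, ∀ x, x ∈ R ↔ x ∈ Q ∧ ∀ y ∈ Q, μ ⁅x, y⁆ = 1 := by
  have hcomZ : ∀ x ∈ Q, ∀ y ∈ Q, ⁅x, y⁆ ∈ Z := fun x hx y hy => hDZ (commutator_mem_commutator hx hy)
  refine ⟨{ carrier := {x | x ∈ Q ∧ ∀ y ∈ Q, μ ⁅x, y⁆ = 1}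
            one_mem' := ⟨one_mem _, fun y _ => by rw [commutatorElement_one_left, hμ1]⟩
            mul_mem' := ?_
            inv_mem' := ?_ }, fun x => Iff.rfl⟩
  · rintro a b ⟨ha, ha'⟩ ⟨hb, hb'⟩
    refine ⟨mul_mem ha hb, fun y hy => ?_⟩
    have h1 : ⁅a * b, y⁆ = ⁅b, y⁆ * ⁅a, y⁆ := by
      have h2 : ⁅a * b, y⁆ = a * ⁅b, y⁆ * a⁻¹ * ⁅a, y⁆ := by
        simp only [commutatorElement_def]; group
      rw [h2, (hZc _ (hcomZ b hb y hy) a ha).eq, mul_inv_cancel_right]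
    rw [h1, hμm _ (hcomZ b hb y hy) _ (hcomZ a ha y hy), ha' y hy, hb' y hy, one_mul]
  · rintro a ⟨ha, ha'⟩
    refine ⟨inv_mem ha, fun y hy => ?_⟩
    have h1 : ⁅a⁻¹, y⁆ = ⁅a, y⁆⁻¹ := by
      have h2 : ⁅a⁻¹, y⁆ = a⁻¹ * ⁅a, y⁆⁻¹ * a⁻¹⁻¹ := by
        simp only [commutatorElement_def]; group
      rw [h2, (hZc _ (inv_mem (hcomZ a ha y hy)) a⁻¹ (inv_mem ha)).eq, mul_inv_cancel_right]
    have h3 := hμm _ (hcomZ a ha y hy) _ (inv_mem (hcomZ a ha y hy))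
    rw [mul_inv_cancel, hμ1, ha' y hy, one_mul] at h3
    rw [h1, ← h3]

theorem exists_symp [Finite Γ] {q : ℕ} [hq : Fact q.Prime] {Q Z X R : Subgroup Γ} {μ : Γ → k}
    (hZQ : Z ≤ Q) (hZc : ∀ z ∈ Z, ∀ y ∈ Q, Commute y z) (hDZ : ⁅Q, Q⁆ ≤ Z)
    (hQq : ∀ x ∈ Q, x ^ q ∈ Z) (hμ1 : μ 1 = 1) (hμm : ∀ x ∈ Z, ∀ y ∈ Z, μ (x * y) = μ x * μ y)
    (hXQ : X ≤ normalizer (Q : Set Γ)) (hXμ : X ≤ stab Z μ)
    (hR : ∀ x, x ∈ R ↔ x ∈ Q ∧ ∀ y ∈ Q, μ ⁅x, y⁆ = 1) :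
    ∃ (M : Type u) (_ : AddCommGroup M) (_ : Module (ZMod q) M) (_ : Finite M)
      (ρ : Representation (ZMod q) X M) (π : Q → M) (e : M → M → k), Function.Surjective π ∧
      (∀ x y, π (x * y) = π x + π y) ∧ (∀ x, π x = 0 ↔ (x : Γ) ∈ R) ∧
      (∀ (a : X) (x y : Q), (y : Γ) = a * x * (a : Γ)⁻¹ → ρ a (π x) = π y) ∧ IsPairing e ∧
      (∀ x y : Q, e (π x) (π y) = μ ⁅(x : Γ), (y : Γ)⁆) ∧ (∀ m, (∀ n, e m n = 1) → m = 0) ∧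
      (∀ g m n, e (ρ g m) (ρ g n) = e m n) := by
  classical
  have hcomZ : ∀ x ∈ Q, ∀ y ∈ Q, ⁅x, y⁆ ∈ Z := fun x hx y hy => hDZ (commutator_mem_commutator hx hy)
  obtain ⟨hZR, hQR, hXR⟩ := radical_props hZQ hZc hDZ hμ1 hXQ hXμ hR
  obtain ⟨M, i1, i2, i3, ρ, π, hπ, hadd, hker, hρ⟩ := SecRep59.exists_section (q := q) Q R X
    (fun x hx y hy => hZR (hcomZ x hx y hy)) (fun x hx => hZR (hQq x hx)) hXQ hXR hQR
  choose s hs using hπ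
  have hcl : ∀ x ∈ Q, ∀ x' ∈ Q, ∀ y ∈ Q, ⁅x * x', y⁆ = ⁅x, y⁆ * ⁅x', y⁆ := by
    intro x hx x' hx' y hy
    have h2 : ⁅x * x', y⁆ = x * ⁅x', y⁆ * x⁻¹ * ⁅x, y⁆ := by
      simp only [commutatorElement_def]; group
    rw [h2, (hZc _ (hcomZ x' hx' y hy) x hx).eq, mul_inv_cancel_right]
    exact (hZc _ (hcomZ x hx y hy) _ (hZQ (hcomZ x' hx' y hy))).eq
  have hcr : ∀ x ∈ Q, ∀ y ∈ Q, ∀ y' ∈ Q, ⁅x, y * y'⁆ = ⁅x, y⁆ * ⁅x, y'⁆ := by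
    intro x hx y hy y' hy'
    have h2 : ⁅x, y * y'⁆ = ⁅x, y⁆ * (y * ⁅x, y'⁆ * y⁻¹) := by
      simp only [commutatorElement_def]; group
    rw [h2, (hZc _ (hcomZ x hx y' hy') y hy).eq, mul_inv_cancel_right]
  have hswap : ∀ x ∈ Q, ∀ y ∈ Q, μ ⁅x, y⁆ * μ ⁅y, x⁆ = 1 := by
    intro x hx y hy
    rw [← hμm _ (hcomZ x hx y hy) _ (hcomZ y hy x hx), ← hμ1]
    congr 1
    simp only [commutatorElement_def]; group
  have hRright : ∀ r ∈ R, ∀ y ∈ Q, μ ⁅y, r⁆ = 1 := by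
    intro r hr y hy
    have h1 := hswap r ((hR r).1 hr).1 y hy
    rw [((hR r).1 hr).2 y hy, one_mul] at h1
    exact h1
  have hwd : ∀ x x' y y' : Q, π x = π x' → π y = π y' →
      μ ⁅(x : Γ), (y : Γ)⁆ = μ ⁅(x' : Γ), (y' : Γ)⁆ := by
    have hmem : ∀ x x' : Q, π x = π x' → ∃ r ∈ R, (x' : Γ) = x * r := by
      intro x x' h
      refine ⟨(x : Γ)⁻¹ * x', ?_, by group⟩
      have h1 : π (x⁻¹ * x') = 0 := by
        have h2 : π (x * (x⁻¹ * x')) = π x + π (x⁻¹ * x') := hadd _ _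
        rw [mul_inv_cancel_left, h] at h2
        exact left_eq_add.1 h2
      exact (hker _).1 h1
    intro x x' y y' hx hy
    obtain ⟨r, hr, hr'⟩ := hmem x x' hx
    obtain ⟨t, ht, ht'⟩ := hmem y y' hy
    have hrQ := ((hR r).1 hr).1
    have htQ := ((hR t).1 ht).1
    rw [hr', ht', hcl _ x.2 _ hrQ _ (mul_mem y.2 htQ), hμm _ (hcomZ _ x.2 _ (mul_mem y.2 htQ)) _
      (hcomZ _ hrQ _ (mul_mem y.2 htQ)), ((hR r).1 hr).2 _ (mul_mem y.2 htQ), mul_one,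
      hcr _ x.2 _ y.2 _ htQ, hμm _ (hcomZ _ x.2 _ y.2) _ (hcomZ _ x.2 _ htQ),
      hRright t ht _ x.2, mul_one]
  have he : ∀ x y : Q, μ ⁅((s (π x) : Q) : Γ), ((s (π y) : Q) : Γ)⁆ = μ ⁅(x : Γ), (y : Γ)⁆ :=
    fun x y => hwd _ _ _ _ (hs _) (hs _)
  refine ⟨M, i1, i2, i3, ρ, π, fun m n => μ ⁅((s m : Q) : Γ), ((s n : Q) : Γ)⁆,
    fun m => ⟨s m, hs m⟩, hadd, hker, hρ, ⟨?_, ?_, ?_⟩, he, ?_, ?_⟩
  · intro x y z
    have h1 : μ ⁅((s (x + y) : Q) : Γ), ((s z : Q) : Γ)⁆ =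
        μ ⁅((s x * s y : Q) : Γ), ((s z : Q) : Γ)⁆ :=
      hwd _ _ _ _ (by rw [hs, hadd, hs, hs]) rfl
    rw [h1, Subgroup.coe_mul, hcl _ (s x).2 _ (s y).2 _ (s z).2,
      hμm _ (hcomZ _ (s x).2 _ (s z).2) _ (hcomZ _ (s y).2 _ (s z).2)]
  · intro x y z
    have h1 : μ ⁅((s x : Q) : Γ), ((s (y + z) : Q) : Γ)⁆ =
        μ ⁅((s x : Q) : Γ), ((s y * s z : Q) : Γ)⁆ :=
      hwd _ _ _ _ rfl (by rw [hs, hadd, hs, hs])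
    rw [h1, Subgroup.coe_mul, hcr _ (s x).2 _ (s y).2 _ (s z).2,
      hμm _ (hcomZ _ (s x).2 _ (s y).2) _ (hcomZ _ (s x).2 _ (s z).2)]
  · intro x
    rw [commutatorElement_self, hμ1]
  · intro m hm
    rw [← hs m, hker, hR]
    refine ⟨(s m).2, fun y hy => ?_⟩
    have h1 := hm (π ⟨y, hy⟩)
    rw [← h1]
    exact (hwd (s m) (s m) (s (π ⟨y, hy⟩)) ⟨y, hy⟩ rfl (hs _)).symm
  · intro g m n
    have hg : ∀ m : M, ρ g m = π ⟨(g : Γ) * (s m : Q) * (g : Γ)⁻¹,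
        (le_normalizer_iff.1 hXQ) g g.2 _ (s m).2⟩ := by
      intro m
      have h1 := hρ g (s m) ⟨(g : Γ) * (s m : Q) * (g : Γ)⁻¹,
        (le_normalizer_iff.1 hXQ) g g.2 _ (s m).2⟩ rfl
      rwa [hs] at h1
    change μ ⁅((s (ρ g m) : Q) : Γ), ((s (ρ g n) : Q) : Γ)⁆ = _
    rw [hg m, hg n, he]
    have h1 : ⁅(g : Γ) * (s m : Q) * (g : Γ)⁻¹, (g : Γ) * (s n : Q) * (g : Γ)⁻¹⁆ =
        (g : Γ) * ⁅((s m : Q) : Γ), ((s n : Q) : Γ)⁆ * (g : Γ)⁻¹ := by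
      simp only [commutatorElement_def]; group
    rw [h1]
    have h2 := (hXμ g.2).2 _ ((mem_normalizer_iff.1 (hXμ g.2).1 _).1
      (hcomZ _ (s m).2 _ (s n).2))
    rw [← h2]
    congr 1
    group

end Basic

end Cfsg.Agent.Lib.SympSec
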