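import Cfsg.Agent.Lib.HeisExt
import Cfsg.Agent.Lib.SympSec
import Cfsg.Agent.Lib.Ward

/-!
The Heisenberg step for the commutator space of `τ` on the symplectic section `Q/R` (helper59).
-/

set_option autoImplicit false

namespace Cfsg.Agent.Lib.HeisStep2

open Module Subgroup Cfsg.Agent.Lib.WielandtFix Cfsg.Agent.Lib.SympFix Cfsg.Agent.Lib.WtGroup
  Cfsg.Agent.Lib.Weights Cfsg.Agent.Lib.CoprimeAction Cfsg.Agent.Lib.CoprimeAction2
  Cfsg.Agent.Lib.SubgroupTools Cfsg.Agent.Lib.Ward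
open scoped commutatorElement

universe u v w

section Lin

variable {q : ℕ} {M : Type*} [AddCommGroup M] [Module (ZMod q) M] {G : Type*} [Group G] [Finite G]

theorem ker_sub_one (ρ : Representation (ZMod q) G M) (b : G) (x : M) :
    (∀ g ∈ zpowers b, ρ g x = x) ↔ ρ b x = x := by
  constructor
  · intro h
    exact h b (mem_zpowers b)
  · intro h g hg
    have h3 := ((isOfFinOrder_of_finite b).mem_powers_iff_mem_zpowers).2 hg
    rw [Submonoid.mem_powers_iff] at h3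
    obtain ⟨i, rfl⟩ := h3
    clear hg
    induction i with
    | zero => rw [pow_zero, map_one]; rfl
    | succ i ih => rw [pow_succ, map_mul, Module.End.mul_apply, h, ih]

theorem free_range (ρ : Representation (ZMod q) G M) (b : G)
    (ho : (orderOf b : ZMod q) ≠ 0) [Fact q.Prime] (x : M) (hx : ∃ y, ρ b y - y = x)
    (h : ρ b x = x) : x = 0 := by
  obtain ⟨y, hy⟩ := hx
  have h1 : ∀ i : ℕ, (ρ b ^ i) x = x := by
    intro i
    induction i with
    | zero => rfl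
    | succ i ih => rw [pow_succ, Module.End.mul_apply, h, ih]
  have h2 : (∑ i ∈ Finset.range (orderOf b), ρ b ^ i) * (ρ b - 1) = 0 := by
    rw [geom_sum_mul, ← map_pow, pow_orderOf_eq_one, map_one, sub_self]
  have h3 : (∑ i ∈ Finset.range (orderOf b), (ρ b ^ i) x) = 0 := by
    have h4 := congrArg (fun f : Module.End (ZMod q) M => f y) h2
    have h5 : (ρ b - 1) y = x := hy
    have h6 : (∑ i ∈ Finset.range (orderOf b), ρ b ^ i) ((ρ b - 1) y) = 0 := h4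
    rw [h5, LinearMap.sum_apply] at h6
    exact h6
  rw [Finset.sum_congr rfl fun i _ => h1 i, Finset.sum_const, Finset.card_range] at h3
  rw [← Nat.cast_smul_eq_nsmul (ZMod q)] at h3
  exact (smul_eq_zero.1 h3).resolve_left ho

end Lin

section Main

variable {Γ : Type u} [Group Γ] [Finite Γ] {k : Type v} {W : Type w}
    [Field k] [IsAlgClosed k] [AddCommGroup W] [Module k W] [FiniteDimensional k W]

theorem heis_step2 (H : Γ →* Module.End k W) {Q U Z R X : Subgroup Γ} [Fintype U] {μ χ : Γ → k}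
    {q : ℕ} [hqf : Fact q.Prime] (hQ : IsPGroup q Q) (hUX : U ≤ X)
    (hXQ : X ≤ normalizer (Q : Set Γ)) (hZQ : Z ≤ Q)
    (hZc : ∀ z ∈ Z, ∀ y ∈ Q, Commute y z) (hDZ : ⁅Q, Q⁆ ≤ Z) (hXμ : X ≤ stab Z μ) {v₀ : W}
    (hv₀ : v₀ ≠ 0) (hv₀χ : IsWt H R χ v₀) (hχμ : ∀ z ∈ Z, χ z = μ z) (hUχ : U ≤ stab R χ)
    (hsum : ∀ w, IsWt H R χ w → ∑ u : U, H (u : Γ) w = 0)
    {τ : Γ} (hτU : τ ∈ U) (hτ : ∀ u ∈ U, u ≠ 1 → τ ∈ zpowers u)
    (hχq : ∀ x ∈ R, χ x ^ q = 1)
    (hQq : ∀ x ∈ Q, x ^ q ∈ Z) {z₀ : Γ} (hz₀ : z₀ ∈ Z) (hμz₀ : μ z₀ ≠ 1)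
    (hR : ∀ x, x ∈ R ↔ x ∈ Q ∧ ∀ y ∈ Q, μ ⁅x, y⁆ = 1) (hUcyc : IsCyclic U)
    (hUc : ∀ a ∈ U, ∀ b ∈ U, Commute a b) (hqU : q.Coprime (Nat.card U)) (hkq : (q : k) ≠ 0)
    (hkU : (Nat.card U : k) ≠ 0)
    {M : Type u} [AddCommGroup M] [Module (ZMod q) M] [Finite M]
    (ρ : Representation (ZMod q) X M) (π : Q → M) (e : M → M → k) (hπ : Function.Surjective π)
    (hadd : ∀ x y, π (x * y) = π x + π y) (hker : ∀ x, π x = 0 ↔ (x : Γ) ∈ R)
    (hρ : ∀ (a : X) (x y : Q), (y : Γ) = a * x * (a : Γ)⁻¹ → ρ a (π x) = π y) (he : IsPairing e)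
    (heμ : ∀ x y : Q, e (π x) (π y) = μ ⁅(x : Γ), (y : Γ)⁆) (hnd : ∀ m, (∀ n, e m n = 1) → m = 0)
    (hinv : ∀ g m n, e (ρ g m) (ρ g n) = e m n) (τX : X) (hτX : (τX : Γ) = τ)
    (hne : ∃ m, ρ τX m ≠ m) :
    ∃ m, 0 < m ∧ Nat.card U = q ^ m + 1 ∧
      finrank (ZMod q) M = finrank (ZMod q) (fixed ρ (zpowers τX)) + 2 * m := by
  classical
  have hq := hqf.out
  have hRQ : R ≤ Q := fun x hx => ((hR x).1 hx).1
  have hcomZ : ∀ x ∈ Q, ∀ y ∈ Q, ⁅x, y⁆ ∈ Z := fun x hx y hy => hDZ (commutator_mem_commutator hx hy)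
  have hχ1 : χ 1 = 1 := isWt_one hv₀χ hv₀
  have hμ1 : μ 1 = 1 := by rw [← hχμ 1 (one_mem _), hχ1]
  obtain ⟨hZR, hQR, hXR⟩ := SympSec.radical_props hZQ hZc hDZ hμ1 hXQ hXμ hR
  have hUR : U ≤ normalizer (R : Set Γ) := hUX.trans hXR
  set B : Module.End (ZMod q) M := ρ τX with hB
  set N : Submodule (ZMod q) M := LinearMap.range (B - 1) with hN
  set C : Submodule (ZMod q) M := fixed ρ (zpowers τX) with hC
  have hkerC : LinearMap.ker (B - 1) = C := by
    ext x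
    rw [LinearMap.mem_ker, hC, mem_fixed, ker_sub_one]
    exact sub_eq_zero
  have hrank : finrank (ZMod q) N + finrank (ZMod q) C = finrank (ZMod q) M := by
    have h1 := LinearMap.finrank_range_add_finrank_ker (B - 1)
    rwa [hkerC] at h1
  have ho : (orderOf τX : ZMod q) ≠ 0 := by
    rw [Ne, ZMod.natCast_eq_zero_iff]
    intro h
    have h1 : orderOf τX ∣ Nat.card U := by
      rw [← Subgroup.orderOf_coe, hτX]
      have h2 := orderOf_dvd_natCard (⟨τ, hτU⟩ : U)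
      rwa [← Subgroup.orderOf_coe] at h2
    have h2 := Nat.dvd_gcd (dvd_refl q) (h.trans h1)
    rw [hqU.gcd_eq_one, Nat.dvd_one] at h2
    exact hq.ne_one h2
  have hNC : ∀ x ∈ N, B x = x → x = 0 := by
    intro x hx hxB
    obtain ⟨y, hy⟩ := hx
    exact free_range ρ τX ho x ⟨y, hy⟩ hxB
  have hCmem : ∀ x, x ∈ C ↔ B x = x := by
    intro x
    rw [hC, mem_fixed, ker_sub_one]
  have htop : N ⊔ C = ⊤ := by
    refine Submodule.eq_top_of_disjoint _ _ hrank.ge ?_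
    rw [Submodule.disjoint_def]
    intro x hx hxC
    exact hNC x hx ((hCmem x).1 hxC)
  have hNnd : ∀ n ∈ N, (∀ n' ∈ N, e n n' = 1) → n = 0 := by
    intro n hn hall
    apply hnd
    intro m
    have hm : m ∈ N ⊔ C := by rw [htop]; trivial
    obtain ⟨n', hn', c, hc, rfl⟩ := Submodule.mem_sup.1 hm
    rw [he.add_right, hall n' hn', one_mul]
    obtain ⟨y, hy⟩ := hn
    have hy' : B y - y = n := hy
    have h1 : e (B y) c = e y c := by
      have h2 := hinv τX y c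
      have h3 : ρ τX c = c := (hCmem c).1 hc
      rw [h3] at h2
      exact h2
    have h2 : e n c * e y c = e (B y) c := by
      rw [← he.add_left, ← hy', sub_add_cancel]
    rw [h1] at h2
    exact mul_right_cancel₀ (he.ne_zero y c) (by rw [one_mul]; exact h2)
  have hπ1 : π 1 = 0 := (hker 1).2 (one_mem _)
  have hπinv : ∀ x, π x⁻¹ = -π x := by
    intro x
    have h1 := hadd x x⁻¹
    rw [mul_inv_cancel, hπ1] at h1
    exact (neg_eq_of_add_eq_zero_right h1.symm).symm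
  -- the preimage of `N`
  let Qb : Subgroup Γ :=
    { carrier := {x | ∃ hx : x ∈ Q, π ⟨x, hx⟩ ∈ N}
      one_mem' := ⟨one_mem _, by
        have : (⟨1, one_mem _⟩ : Q) = 1 := rfl
        rw [this, hπ1]; exact zero_mem _⟩
      mul_mem' := by
        rintro a b ⟨ha, ha'⟩ ⟨hb, hb'⟩
        refine ⟨mul_mem ha hb, ?_⟩
        have : (⟨a * b, mul_mem ha hb⟩ : Q) = ⟨a, ha⟩ * ⟨b, hb⟩ := rfl
        rw [this, hadd]
        exact add_mem ha' hb'
      inv_mem' := by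
        rintro a ⟨ha, ha'⟩
        refine ⟨inv_mem ha, ?_⟩
        have : (⟨a⁻¹, inv_mem ha⟩ : Q) = ⟨a, ha⟩⁻¹ := rfl
        rw [this, hπinv]
        exact neg_mem ha' }
  have hQbQ : Qb ≤ Q := fun x hx => hx.1
  have hRQb : R ≤ Qb := by
    intro x hx
    refine ⟨hRQ hx, ?_⟩
    rw [(hker ⟨x, hRQ hx⟩).2 hx]
    exact zero_mem _
  have hQbN : ∀ x : Γ, ∀ hx : x ∈ Qb, π ⟨x, hQbQ hx⟩ ∈ N := fun x hx => hx.2
  have hUQb : U ≤ normalizer (Qb : Set Γ) := by
    rw [le_normalizer_iff]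
    rintro g hg x ⟨hx, hx'⟩
    refine ⟨(le_normalizer_iff.1 (hUX.trans hXQ)) g hg x hx, ?_⟩
    have h1 := hρ ⟨g, hUX hg⟩ ⟨x, hx⟩ ⟨g * x * g⁻¹, (le_normalizer_iff.1 (hUX.trans hXQ)) g hg x hx⟩
      rfl
    rw [← h1]
    obtain ⟨y, hy⟩ := hx'
    rw [← hy]
    refine ⟨ρ ⟨g, hUX hg⟩ y, ?_⟩
    have h2 : (B - 1) * ρ ⟨g, hUX hg⟩ = ρ ⟨g, hUX hg⟩ * (B - 1) := by
      have h3 : B * ρ ⟨g, hUX hg⟩ = ρ ⟨g, hUX hg⟩ * B := by
        rw [hB, ← map_mul, ← map_mul]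
        congr 1
        apply Subtype.ext
        change (τX : Γ) * g = g * (τX : Γ)
        rw [hτX]
        exact (hUc τ hτU g hg).eq
      rw [sub_mul, mul_sub, h3, one_mul, mul_one]
    exact congrArg (fun f : Module.End (ZMod q) M => f y) h2
  -- the weight space
  set V : Submodule k W := wtSub H R χ with hV
  have hVQ : ∀ x ∈ Q, ∀ w ∈ V, H x w ∈ V := by
    intro x hx w hw r hr
    have hrQ := hRQ hr
    have h1 : r * x = x * r * (r⁻¹ * x⁻¹ * r * x) := by group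
    have h2 : ⁅r⁻¹, x⁻¹⁆ ∈ Z := hcomZ _ (inv_mem hrQ) _ (inv_mem hx)
    have h3 : r⁻¹ * x⁻¹ * r * x = ⁅r⁻¹, x⁻¹⁆ := by rw [commutatorElement_def]; group
    have h4 : H ⁅r⁻¹, x⁻¹⁆ w = w := by
      rw [hw _ (hZR h2), hχμ _ h2, ((hR _).1 (inv_mem hr)).2 _ (inv_mem hx), one_smul]
    rw [← Module.End.mul_apply, ← map_mul, h1, h3, map_mul, map_mul, Module.End.mul_apply, h4,
      Module.End.mul_apply, hw r hr, map_smul]
  have hVU : ∀ x ∈ U, ∀ w ∈ V, H x w ∈ V := by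
    intro g hg w hw z hz
    have h1 := isWt_tw H hw (hUχ hg).1 z hz
    rw [h1, tw_apply, (hUχ hg).2 z hz]
  have hVne : Nontrivial V := ⟨⟨v₀, hv₀χ⟩, 0, fun h => hv₀ (congrArg Subtype.val h)⟩
  let h : Qb →* Module.End k V := ModRep.subrep (H.comp Qb.subtype) V
    fun x w hw => hVQ x (hQbQ x.2) w hw
  let s : U →* Module.End k V := ModRep.subrep (H.comp U.subtype) V fun x w hw => hVU x x.2 w hw
  have hh : ∀ (x : Qb) (w : V), ((h x w : V) : W) = H (x : Γ) w := fun x w => rfl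
  have hs : ∀ (x : U) (w : V), ((s x w : V) : W) = H (x : Γ) w := fun x w => rfl
  have hheis := HeisExt.card_eq_of_heis (ElabRep.conjHom U Qb hUQb) h s (by
      intro u x
      apply LinearMap.ext
      intro w
      apply Subtype.ext
      rw [Module.End.mul_apply, Module.End.mul_apply, hs, hh, hh, hs, ElabRep.conjHom_apply,
        ← Module.End.mul_apply, ← Module.End.mul_apply, ← map_mul, ← map_mul]
      congr 2
      group) (by
      apply LinearMap.ext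
      intro w
      apply Subtype.ext
      rw [LinearMap.sum_apply, Submodule.coe_sum]
      exact hsum w w.2) (R.subgroupOf Qb) (fun x => χ x) (by
      intro x hx w
      apply Subtype.ext
      rw [hh]
      exact w.2 x hx) hq (hQ.to_le hQbQ) (by
      intro x
      exact hZR (hQq x (hQbQ x.2))) (by
      intro u x hx
      exact (le_normalizer_iff.1 hUR) u u.2 x hx) (by
      intro x y
      exact hZR (hcomZ x (hQbQ x.2) y (hQbQ y.2))) (by
      intro x hx y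
      change χ ⁅(x : Γ), (y : Γ)⁆ = 1
      rw [hχμ _ (hcomZ x (hQbQ x.2) y (hQbQ y.2))]
      exact ((hR x).1 hx).2 y (hQbQ y.2)) (by
      intro u x hx
      have h1 := (hUχ (inv_mem u.2)).2 x hx
      rw [inv_inv] at h1
      exact h1) (by
      intro x hx
      change (x : Γ) ∈ R
      rw [← hker ⟨x, hQbQ x.2⟩]
      apply hNnd _ (hQbN x x.2)
      intro n' hn'
      obtain ⟨y, rfl⟩ := hπ n'
      rw [heμ]
      have h1 := hx ⟨y, ⟨y.2, hn'⟩⟩
      rw [← hχμ _ (hcomZ x (hQbQ x.2) y y.2)]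
      exact h1) (by
      intro u hu1 x hx
      have hu1' : (u : Γ) ≠ 1 := fun h => hu1 (Subtype.ext h)
      have hx' : (x : Γ)⁻¹ * ((u : Γ) * x * (u : Γ)⁻¹) ∈ R := hx
      change (x : Γ) ∈ R
      rw [← hker ⟨x, hQbQ x.2⟩]
      apply hNC _ (hQbN x x.2)
      have h1 := hρ ⟨u, hUX u.2⟩ ⟨x, hQbQ x.2⟩
        ⟨u * x * (u : Γ)⁻¹, (le_normalizer_iff.1 (hUX.trans hXQ)) u u.2 x (hQbQ x.2)⟩ rfl
      have h2 : π ⟨u * x * (u : Γ)⁻¹, (le_normalizer_iff.1 (hUX.trans hXQ)) u u.2 x (hQbQ x.2)⟩ =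
          π ⟨x, hQbQ x.2⟩ := by
        have h3 : π (⟨x, hQbQ x.2⟩⁻¹ * ⟨u * x * (u : Γ)⁻¹,
          (le_normalizer_iff.1 (hUX.trans hXQ)) u u.2 x (hQbQ x.2)⟩) = 0 := (hker _).2 hx'
        rw [hadd, hπinv] at h3
        exact (neg_add_eq_zero.1 h3).symm
      rw [h2] at h1
      have h4 := (ker_sub_one ρ (⟨u, hUX u.2⟩ : X) (π ⟨x, hQbQ x.2⟩)).2 h1
      apply h4 τX
      obtain ⟨i, hi⟩ := mem_zpowers_iff.1 (hτ u u.2 hu1')
      refine mem_zpowers_iff.2 ⟨i, ?_⟩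
      apply Subtype.ext
      rw [hτX, ← hi]; rfl) (by
      intro x hx
      exact hχq x hx) ⟨⟨z₀, hRQb (hZR hz₀)⟩, hZR hz₀, by
        change χ z₀ ≠ 1
        rw [hχμ z₀ hz₀]; exact hμz₀⟩ (by
      intro htop'
      obtain ⟨m, hm⟩ := hne
      have h1 : B m - m ∈ N := ⟨m, rfl⟩
      obtain ⟨y, hy⟩ := hπ (B m - m)
      have h2 : (⟨y, ⟨y.2, by rw [Subtype.coe_eta, hy]; exact h1⟩⟩ : Qb) ∈ R.subgroupOf Qb := by
        rw [htop']; trivial
      have h3 : (y : Γ) ∈ R := h2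
      rw [← hker y, hy, sub_eq_zero] at h3
      exact hm h3) hUcyc (fun a b => Subtype.ext (hUc a a.2 b b.2)) hqU hkq hkU
  obtain ⟨m, hm, hcardU, hind⟩ := hheis
  refine ⟨m, hm, hcardU, ?_⟩
  -- the order of `N`
  let f : Qb →* Multiplicative N := MonoidHom.mk' (fun x => Multiplicative.ofAdd
    (⟨π ⟨x, hQbQ x.2⟩, hQbN x x.2⟩ : N)) (by
      intro a b
      rw [← ofAdd_add]
      congr 1
      apply Subtype.ext
      exact hadd ⟨a, hQbQ a.2⟩ ⟨b, hQbQ b.2⟩)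
  have hf : ∀ x : Qb, f x = Multiplicative.ofAdd (⟨π ⟨x, hQbQ x.2⟩, hQbN x x.2⟩ : N) := fun x => rfl
  have hfker : f.ker = R.subgroupOf Qb := by
    ext x
    rw [MonoidHom.mem_ker, hf, mem_subgroupOf, ← hker ⟨x, hQbQ x.2⟩]
    constructor
    · intro h1
      exact congrArg (fun t : Multiplicative N => ((Multiplicative.toAdd t : N) : M)) h1
    · intro h1
      have h2 : (⟨π ⟨x, hQbQ x.2⟩, hQbN x x.2⟩ : N) = 0 := Subtype.ext h1
      rw [h2]; rfl
  have hfsurj : Function.Surjective f := by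
    intro t
    obtain ⟨y, hy⟩ := hπ ((Multiplicative.toAdd t : N) : M)
    refine ⟨⟨y, ⟨y.2, by rw [Subtype.coe_eta, hy]; exact (Multiplicative.toAdd t : N).2⟩⟩, ?_⟩
    rw [hf]
    apply Multiplicative.toAdd.injective
    apply Subtype.ext
    exact hy
  have h1 := Subgroup.index_ker f
  rw [hfker, hind, MonoidHom.range_eq_top.2 hfsurj, Subgroup.card_top] at h1
  have h2 : Nat.card (Multiplicative N) = Nat.card N := rfl
  have h3 : Nat.card N = q ^ finrank (ZMod q) N := by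
    rw [Module.natCard_eq_pow_finrank (K := ZMod q)]
    simp
  rw [h2, h3] at h1
  have h4 := Nat.pow_right_injective hq.two_le h1
  omega

end Main

end Cfsg.Agent.Lib.HeisStep2
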