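import Cfsg.Agent.Lib.BryHeis2
import Cfsg.Agent.Lib.HeisStep2

/-!
The Heisenberg step in characteristic two for the commutator space of `τ` on `Q/R` (helper59).
-/

set_option autoImplicit false

namespace Cfsg.Agent.Lib.BryStep

open Module Subgroup Cfsg.Agent.Lib.WielandtFix Cfsg.Agent.Lib.SympFix Cfsg.Agent.Lib.WtGroup
  Cfsg.Agent.Lib.Weights Cfsg.Agent.Lib.CoprimeAction Cfsg.Agent.Lib.CoprimeAction2
  Cfsg.Agent.Lib.SubgroupTools Cfsg.Agent.Lib.Ward Cfsg.Agent.Lib.HeisStep2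
open scoped commutatorElement

universe u v w

section Main

variable {Γ : Type u} [Group Γ] [Finite Γ] {k : Type v} {W : Type w}
    [Field k] [IsAlgClosed k] [CharP k 2] [AddCommGroup W] [Module k W] [FiniteDimensional k W]

theorem heis_step (H : Γ →* Module.End k W) {Q Z R X : Subgroup Γ} {μ χ : Γ → k}
    {q : ℕ} [hqf : Fact q.Prime] (hq2 : q ≠ 2) (hQ : IsPGroup q Q)
    (hXQ : X ≤ normalizer (Q : Set Γ)) (hZQ : Z ≤ Q)
    (hZc : ∀ z ∈ Z, ∀ y ∈ Q, Commute y z) (hDZ : ⁅Q, Q⁆ ≤ Z) (hXμ : X ≤ stab Z μ) {v₀ : W}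
    (hv₀ : v₀ ≠ 0) (hv₀χ : IsWt H R χ v₀) (hχμ : ∀ z ∈ Z, χ z = μ z) {x₁ : X}
    (hx₁χ : (x₁ : Γ) ∈ stab R χ) {b : ℕ} (hb : 1 ≤ b) (hx₁b : x₁ ^ 2 ^ b = 1)
    (hnil : ∀ w, IsWt H R χ w → ((H (x₁ : Γ) - 1) ^ (2 ^ b - 1) : Module.End k W) w = 0)
    (hR : ∀ x, x ∈ R ↔ x ∈ Q ∧ ∀ y ∈ Q, μ ⁅x, y⁆ = 1) (hkq : (q : k) ≠ 0)
    {M : Type u} [AddCommGroup M] [Module (ZMod q) M] [Finite M]
    (ρ : Representation (ZMod q) X M) (π : Q → M) (e : M → M → k) (hπ : Function.Surjective π)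
    (hadd : ∀ x y, π (x * y) = π x + π y) (hker : ∀ x, π x = 0 ↔ (x : Γ) ∈ R)
    (hρ : ∀ (a : X) (x y : Q), (y : Γ) = a * x * (a : Γ)⁻¹ → ρ a (π x) = π y) (he : IsPairing e)
    (heμ : ∀ x y : Q, e (π x) (π y) = μ ⁅(x : Γ), (y : Γ)⁆) (hnd : ∀ m, (∀ n, e m n = 1) → m = 0)
    (hinv : ∀ g m n, e (ρ g m) (ρ g n) = e m n) (τX : X) (hτX : x₁ ^ 2 ^ (b - 1) = τX)
    (hne : ∃ m, ρ τX m ≠ m) :
    (∃ m, 0 < m ∧ 2 ^ b = q ^ m + 1 ∧
      finrank (ZMod q) M = finrank (ZMod q) (fixed ρ (zpowers τX)) + 2 * m) ∧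
      ∀ v, ρ τX v = v → ρ x₁ v = v := by
  classical
  have hq := hqf.out
  have hRQ : R ≤ Q := fun x hx => ((hR x).1 hx).1
  have hcomZ : ∀ x ∈ Q, ∀ y ∈ Q, ⁅x, y⁆ ∈ Z := fun x hx y hy => hDZ (commutator_mem_commutator hx hy)
  have hχ1 : χ 1 = 1 := isWt_one hv₀χ hv₀
  have hμ1 : μ 1 = 1 := by rw [← hχμ 1 (one_mem _), hχ1]
  obtain ⟨hZR, hQR, hXR⟩ := SympSec.radical_props hZQ hZc hDZ hμ1 hXQ hXμ hR
  have hτ2 : τX ^ 2 = 1 := by
    rw [← hτX, ← pow_mul, ← pow_succ]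
    have : b - 1 + 1 = b := by omega
    rw [this, hx₁b]
  have hx₁Q : (x₁ : Γ) ∈ normalizer (Q : Set Γ) := hXQ x₁.2
  set B : Module.End (ZMod q) M := ρ τX with hB
  set N : Submodule (ZMod q) M := LinearMap.range (B - 1) with hN
  set C : Submodule (ZMod q) M := fixed ρ (zpowers τX) with hC
  have hkerC : LinearMap.ker (B - 1) = C := by
    ext x
    rw [LinearMap.mem_ker, hC, mem_fixed, ker_sub_one]
    exact sub_eq_zero
  have hrank : finrank (ZMod q) N + finrank (ZMod q) C = finrank (ZMod q) M := by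
    have h1 := LinearMap.finrank_range_add_finrank_ker (B - 1)
    rwa [hkerC] at h1
  have ho : (orderOf τX : ZMod q) ≠ 0 := by
    rw [Ne, ZMod.natCast_eq_zero_iff]
    intro h
    have h1 : q ∣ 2 := h.trans (orderOf_dvd_of_pow_eq_one hτ2)
    exact hq2 ((Nat.prime_dvd_prime_iff_eq hq Nat.prime_two).1 h1)
  have hNC : ∀ x ∈ N, B x = x → x = 0 := by
    intro x hx hxB
    obtain ⟨y, hy⟩ := hx
    exact free_range ρ τX ho x ⟨y, hy⟩ hxB
  have hCmem : ∀ x, x ∈ C ↔ B x = x := by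
    intro x
    rw [hC, mem_fixed, ker_sub_one]
  have htop : N ⊔ C = ⊤ := by
    refine Submodule.eq_top_of_disjoint _ _ hrank.ge ?_
    rw [Submodule.disjoint_def]
    intro x hx hxC
    exact hNC x hx ((hCmem x).1 hxC)
  have hNCe : ∀ n ∈ N, ∀ c ∈ C, e n c = 1 := by
    intro n hn c hc
    obtain ⟨y, hy⟩ := hn
    have hy' : B y - y = n := hy
    have h1 : e (B y) c = e y c := by
      have h2 := hinv τX y c
      have h3 : ρ τX c = c := (hCmem c).1 hc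
      rw [h3] at h2
      exact h2
    have h2 : e n c * e y c = e (B y) c := by
      rw [← he.add_left, ← hy', sub_add_cancel]
    rw [h1] at h2
    exact mul_right_cancel₀ (he.ne_zero y c) (by rw [one_mul]; exact h2)
  have hNnd : ∀ n ∈ N, (∀ n' ∈ N, e n n' = 1) → n = 0 := by
    intro n hn hall
    apply hnd
    intro m
    have hm : m ∈ N ⊔ C := by rw [htop]; trivial
    obtain ⟨n', hn', c, hc, rfl⟩ := Submodule.mem_sup.1 hm
    rw [he.add_right, hall n' hn', one_mul]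
    exact hNCe n hn c hc
  have hπ1 : π 1 = 0 := (hker 1).2 (one_mem _)
  have hπinv : ∀ x, π x⁻¹ = -π x := by
    intro x
    have h1 := hadd x x⁻¹
    rw [mul_inv_cancel, hπ1] at h1
    exact (neg_eq_of_add_eq_zero_right h1.symm).symm
  -- the preimage of `N`
  let Qb : Subgroup Γ :=
    { carrier := {x | ∃ hx : x ∈ Q, π ⟨x, hx⟩ ∈ N}
      one_mem' := ⟨one_mem _, by
        have : (⟨1, one_mem _⟩ : Q) = 1 := rfl
        rw [this, hπ1]; exact zero_mem _⟩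
      mul_mem' := by
        rintro a b ⟨ha, ha'⟩ ⟨hb, hb'⟩
        refine ⟨mul_mem ha hb, ?_⟩
        have : (⟨a * b, mul_mem ha hb⟩ : Q) = ⟨a, ha⟩ * ⟨b, hb⟩ := rfl
        rw [this, hadd]
        exact add_mem ha' hb'
      inv_mem' := by
        rintro a ⟨ha, ha'⟩
        refine ⟨inv_mem ha, ?_⟩
        have : (⟨a⁻¹, inv_mem ha⟩ : Q) = ⟨a, ha⟩⁻¹ := rfl
        rw [this, hπinv]
        exact neg_mem ha' }
  have hQbQ : Qb ≤ Q := fun x hx => hx.1
  have hRQb : R ≤ Qb := by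
    intro x hx
    refine ⟨hRQ hx, ?_⟩
    rw [(hker ⟨x, hRQ hx⟩).2 hx]
    exact zero_mem _
  have hQbN : ∀ x : Γ, ∀ hx : x ∈ Qb, π ⟨x, hQbQ hx⟩ ∈ N := fun x hx => hx.2
  have hBx : ∀ n ∈ N, ρ x₁ n ∈ N := by
    rintro _ ⟨y, rfl⟩
    refine ⟨ρ x₁ y, ?_⟩
    have h2 : (B - 1) * ρ x₁ = ρ x₁ * (B - 1) := by
      have h3 : B * ρ x₁ = ρ x₁ * B := by
        rw [hB, ← map_mul, ← map_mul]
        congr 1
        rw [← hτX, ← pow_succ, ← pow_succ']
      rw [sub_mul, mul_sub, h3, one_mul, mul_one]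
    exact congrArg (fun f : Module.End (ZMod q) M => f y) h2
  have hUQb : zpowers (x₁ : Γ) ≤ normalizer (Qb : Set Γ) := by
    rw [zpowers_le]
    apply Subgroup.mem_normalizer_fintype
    rintro x ⟨hx, hx'⟩
    refine ⟨(mem_normalizer_iff.1 hx₁Q x).1 hx, ?_⟩
    have h1 := hρ x₁ ⟨x, hx⟩ ⟨x₁ * x * (x₁ : Γ)⁻¹, (mem_normalizer_iff.1 hx₁Q x).1 hx⟩ rfl
    rw [← h1]
    exact hBx _ hx'
  -- the weight space
  set V : Submodule k W := wtSub H R χ with hV
  have hVQ : ∀ x ∈ Q, ∀ w ∈ V, H x w ∈ V := by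
    intro x hx w hw r hr
    have hrQ := hRQ hr
    have h1 : r * x = x * r * (r⁻¹ * x⁻¹ * r * x) := by group
    have h2 : ⁅r⁻¹, x⁻¹⁆ ∈ Z := hcomZ _ (inv_mem hrQ) _ (inv_mem hx)
    have h3 : r⁻¹ * x⁻¹ * r * x = ⁅r⁻¹, x⁻¹⁆ := by rw [commutatorElement_def]; group
    have h4 : H ⁅r⁻¹, x⁻¹⁆ w = w := by
      rw [hw _ (hZR h2), hχμ _ h2, ((hR _).1 (inv_mem hr)).2 _ (inv_mem hx), one_smul]
    rw [← Module.End.mul_apply, ← map_mul, h1, h3, map_mul, map_mul, Module.End.mul_apply, h4,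
      Module.End.mul_apply, hw r hr, map_smul]
  have hVx : ∀ w ∈ V, H (x₁ : Γ) w ∈ V := by
    intro w hw z hz
    have h1 := isWt_tw H hw hx₁χ.1 z hz
    rw [h1, tw_apply, hx₁χ.2 z hz]
  have hVne : Nontrivial V := ⟨⟨v₀, hv₀χ⟩, 0, fun h => hv₀ (congrArg Subtype.val h)⟩
  let h : Qb →* Module.End k V := ModRep.subrep (H.comp Qb.subtype) V
    fun x w hw => hVQ x (hQbQ x.2) w hw
  let s : Module.End k V := (H (x₁ : Γ)).restrict hVx
  have hh : ∀ (x : Qb) (w : V), ((h x w : V) : W) = H (x : Γ) w := fun x w => rfl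
  have hs : ∀ (w : V), ((s w : V) : W) = H (x₁ : Γ) w := fun w => rfl
  have hspow : ∀ (i : ℕ) (w : V), (((s ^ i) w : V) : W) = (H (x₁ : Γ) ^ i) w := by
    intro i
    induction i with
    | zero => intro w; rfl
    | succ i ih =>
      intro w
      rw [pow_succ, pow_succ, Module.End.mul_apply, Module.End.mul_apply, ih, hs]
  have hsnpow : ∀ (i : ℕ) (w : V), ((((s - 1) ^ i) w : V) : W) = ((H (x₁ : Γ) - 1) ^ i) w := by
    intro i
    induction i with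
    | zero => intro w; rfl
    | succ i ih =>
      intro w
      rw [pow_succ, pow_succ, Module.End.mul_apply, Module.End.mul_apply, ih]
      rfl
  have hNnt : Nontrivial N := by
    obtain ⟨m, hm⟩ := hne
    refine ⟨⟨B m - m, ⟨m, rfl⟩⟩, 0, fun h => hm ?_⟩
    exact sub_eq_zero.1 (congrArg Subtype.val h)
  let φ : Qb →* Qb := (ElabRep.conjHom (zpowers (x₁ : Γ)) Qb hUQb ⟨x₁, mem_zpowers _⟩).toMonoidHom
  have hφ : ∀ x : Qb, ((φ x : Qb) : Γ) = x₁ * x * (x₁ : Γ)⁻¹ := fun x => by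
    change ((ElabRep.conjHom (zpowers (x₁ : Γ)) Qb hUQb ⟨x₁, mem_zpowers _⟩ x : Qb) : Γ) = _
    rw [ElabRep.conjHom_apply]
  let A : N → N := fun n => ⟨ρ x₁ n, hBx n n.2⟩
  have hAi : ∀ (i : ℕ) (n : N), ((A^[i] n : N) : M) = ρ (x₁ ^ i) n := by
    intro i
    induction i with
    | zero => intro n; rw [pow_zero, map_one]; rfl
    | succ i ih =>
      intro n
      rw [Function.iterate_succ_apply', pow_succ', map_mul, Module.End.mul_apply, ← ih]
  obtain ⟨⟨m, hm, hbm, hcard⟩, hspan⟩ := BryHeis.heis2 h (π := fun x : Qb =>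
      (⟨π ⟨x, hQbQ x.2⟩, hQbN x x.2⟩ : N)) (by
      intro n
      obtain ⟨y, hy⟩ := hπ n
      exact ⟨⟨y, ⟨y.2, by rw [Subtype.coe_eta, hy]; exact n.2⟩⟩, Subtype.ext hy⟩) (by
      intro x y
      exact Subtype.ext (hadd ⟨x, hQbQ x.2⟩ ⟨y, hQbQ y.2⟩))
      (e := fun m n => e (m : M) n) ⟨fun x y z => he.add_left x y z, fun x y z => he.add_right x y z,
        fun x => he.self x⟩ (by
      intro n hn
      exact Subtype.ext (hNnd n n.2 fun n' hn' => hn ⟨n', hn'⟩)) (by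
      intro x y
      apply LinearMap.ext
      intro w
      apply Subtype.ext
      change H ((x : Γ) * y) w = e (π ⟨x, hQbQ x.2⟩) (π ⟨y, hQbQ y.2⟩) • H ((y : Γ) * x) w
      have h1 : (x : Γ) * y = ⁅(x : Γ), (y : Γ)⁆ * (y * x) := by rw [commutatorElement_def]; group
      have h2 : H ((y : Γ) * x) w ∈ V := hVQ _ (mul_mem (hQbQ y.2) (hQbQ x.2)) _ w.2
      rw [heμ, h1, map_mul, Module.End.mul_apply,
        h2 _ (hZR (hcomZ _ (hQbQ x.2) _ (hQbQ y.2))), hχμ _ (hcomZ _ (hQbQ x.2) _ (hQbQ y.2))]) (by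
      intro x hx
      have h1 : (x : Γ) ∈ R := (hker ⟨x, hQbQ x.2⟩).1 (congrArg Subtype.val hx)
      refine ⟨χ x, ?_⟩
      apply LinearMap.ext
      intro w
      apply Subtype.ext
      exact w.2 x h1) hb (s := s) (by
      apply LinearMap.ext
      intro w
      apply Subtype.ext
      have h1 : (x₁ : Γ) ^ 2 ^ b = 1 := by
        have := congrArg (Subtype.val : X → Γ) hx₁b
        simpa using this
      rw [hspow, ← map_pow, h1, map_one]
      rfl) φ (by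
      intro x
      apply LinearMap.ext
      intro w
      apply Subtype.ext
      change H (x₁ : Γ) (H (x : Γ) w) = H ((φ x : Qb) : Γ) (H (x₁ : Γ) w)
      rw [hφ, ← Module.End.mul_apply, ← Module.End.mul_apply, ← map_mul, ← map_mul]
      congr 2
      group) (A := A) (by
      intro x
      apply Subtype.ext
      exact (hρ x₁ ⟨x, hQbQ x.2⟩ ⟨(φ x : Qb), hQbQ (φ x).2⟩ (hφ x)).symm) (by
      intro i hi0 hi n hn
      apply Subtype.ext
      apply hNC n n.2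
      have h1 : ρ (x₁ ^ i) (n : M) = n := by rw [← hAi, hn]
      have h2 := (ker_sub_one ρ (x₁ ^ i) (n : M)).2 h1
      apply h2 τX
      -- `τ` is a power of `x₁ ^ i`
      obtain ⟨t, j, hj, hij⟩ := Nat.exists_eq_pow_mul_and_not_dvd hi0.ne' 2 (by norm_num)
      have ht : t < b := by
        have h4 : 2 ^ t < 2 ^ b := by
          refine lt_of_le_of_lt ?_ hi
          rw [hij]
          exact Nat.le_mul_of_pos_right _ (Nat.pos_of_ne_zero fun h => hj (h ▸ dvd_zero 2))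
        exact (Nat.pow_lt_pow_iff_right (by norm_num)).1 h4
      refine mem_zpowers_iff.2 ⟨((2 ^ (b - 1 - t) : ℕ) : ℤ), ?_⟩
      rw [zpow_natCast, ← pow_mul, hij]
      have h4 : 2 ^ t * j * 2 ^ (b - 1 - t) = 2 ^ (b - 1) * j := by
        have : b - 1 = t + (b - 1 - t) := by omega
        conv_rhs => rw [this, pow_add]
        ring
      obtain ⟨j', hj'⟩ := Nat.odd_iff.2 (Nat.two_dvd_ne_zero.1 hj)
      rw [h4, pow_mul, hτX, hj', pow_succ, pow_mul, hτ2, one_pow, one_mul]) (by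
      apply LinearMap.ext
      intro w
      apply Subtype.ext
      rw [hsnpow, hnil _ w.2]
      rfl) hq (hQ.to_le hQbQ) hkq
  refine ⟨⟨m, hm, hbm, ?_⟩, ?_⟩
  · have h3 : Nat.card N = q ^ finrank (ZMod q) N := by
      rw [Module.natCard_eq_pow_finrank (K := ZMod q)]
      simp
    rw [hcard] at h3
    have h4 := Nat.pow_right_injective hq.two_le h3
    omega
  · intro v hv
    obtain ⟨y, rfl⟩ := hπ v
    have hyC : π y ∈ C := (hCmem _).2 hv
    have hyV : ∀ w ∈ V, H (y : Γ) w ∈ V := fun w hw => hVQ y y.2 w hw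
    let Y : Module.End k V := (H (y : Γ)).restrict hyV
    have hYh : ∀ x : Qb, Y * h x = h x * Y := by
      intro x
      apply LinearMap.ext
      intro w
      apply Subtype.ext
      change H (y : Γ) (H (x : Γ) w) = H (x : Γ) (H (y : Γ) w)
      have h1 : (x : Γ) * y = ⁅(x : Γ), (y : Γ)⁆ * (y * x) := by rw [commutatorElement_def]; group
      have h2 : H ((y : Γ) * x) w ∈ V := hVQ _ (mul_mem y.2 (hQbQ x.2)) _ w.2
      have h3 : μ ⁅(x : Γ), (y : Γ)⁆ = 1 := by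
        rw [← heμ ⟨x, hQbQ x.2⟩ y]
        exact hNCe _ (hQbN x x.2) _ hyC
      rw [← Module.End.mul_apply, ← Module.End.mul_apply, ← map_mul, ← map_mul, h1, map_mul H ⁅_, _⁆,
        Module.End.mul_apply, h2 _ (hZR (hcomZ _ (hQbQ x.2) _ y.2)),
        hχμ _ (hcomZ _ (hQbQ x.2) _ y.2), h3, one_smul]
    have hYs := BryHeis.comm_of_mem_span h hspan hYh
    have hYs' : ∀ w ∈ V, H (y : Γ) (H (x₁ : Γ) w) = H (x₁ : Γ) (H (y : Γ) w) := by
      intro w hw
      exact congrArg (fun T : Module.End k V => ((T ⟨w, hw⟩ : V) : W)) hYs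
    have hnQ : (x₁ : Γ) * y * (x₁ : Γ)⁻¹ ∈ Q := (mem_normalizer_iff.1 hx₁Q y).1 y.2
    have hz : ((x₁ : Γ) * y * (x₁ : Γ)⁻¹) * (y : Γ)⁻¹ ∈ R := by
      set z : Γ := ((x₁ : Γ) * y * (x₁ : Γ)⁻¹) * (y : Γ)⁻¹ with hzdef
      have hzQ : z ∈ Q := mul_mem hnQ (inv_mem y.2)
      have hzV : ∀ w ∈ V, H z w = w := by
        intro w hw
        have h1 : H (y : Γ)⁻¹ w ∈ V := hVQ _ (inv_mem y.2) w hw
        have hVx' : ∀ w ∈ V, H (x₁ : Γ)⁻¹ w ∈ V := by
          intro w hw z hz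
          have h1 := isWt_tw H hw (inv_mem hx₁χ.1) z hz
          rw [h1, tw_apply, (inv_mem hx₁χ : (x₁ : Γ)⁻¹ ∈ stab R χ).2 z hz]
        have h2 : H (x₁ : Γ)⁻¹ (H (y : Γ)⁻¹ w) ∈ V := hVx' _ h1
        rw [hzdef, map_mul, map_mul, map_mul, Module.End.mul_apply, Module.End.mul_apply,
          Module.End.mul_apply, ← hYs' _ h2, ← Module.End.mul_apply (H (x₁ : Γ)), ← map_mul,
          mul_inv_cancel, map_one, Module.End.one_apply, ← Module.End.mul_apply, ← map_mul,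
          mul_inv_cancel, map_one, Module.End.one_apply]
      rw [hR]
      refine ⟨hzQ, fun y' hy' => ?_⟩
      have h1 : H ⁅z, y'⁆ v₀ = v₀ := by
        have hzV' : ∀ w ∈ V, H z⁻¹ w = w := by
          intro w hw
          conv_lhs => rw [← hzV w hw]
          rw [← Module.End.mul_apply, ← map_mul, inv_mul_cancel, map_one]; rfl
        have h2 : H y'⁻¹ v₀ ∈ V := hVQ _ (inv_mem hy') _ hv₀χ
        rw [commutatorElement_def, map_mul, map_mul, map_mul, Module.End.mul_apply,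
          Module.End.mul_apply, Module.End.mul_apply, hzV' _ h2, ← Module.End.mul_apply (H y'),
          ← map_mul, mul_inv_cancel, map_one, Module.End.one_apply, hzV _ hv₀χ]
      rw [hv₀χ _ (hZR (hcomZ z hzQ y' hy')), hχμ _ (hcomZ z hzQ y' hy')] at h1
      have h2 : (μ ⁅z, y'⁆ - 1) • v₀ = 0 := by rw [sub_smul, h1, one_smul, sub_self]
      exact sub_eq_zero.1 ((smul_eq_zero.1 h2).resolve_right hv₀)
    have h1 := hρ x₁ y ⟨x₁ * y * (x₁ : Γ)⁻¹, hnQ⟩ rfl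
    rw [h1]
    have h2 : π (⟨x₁ * y * (x₁ : Γ)⁻¹, hnQ⟩ * y⁻¹) = 0 := (hker _).2 hz
    rw [hadd, hπinv] at h2
    exact add_neg_eq_zero.1 h2

end Main

end Cfsg.Agent.Lib.BryStep
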