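import Cfsg.Agent.Lib.BryLoc

/-!
Bryukhanova's theorem: elements acting like transvections of order `2 ^ b` (helper59).
-/

set_option autoImplicit false

namespace Cfsg.Agent.Lib.BryTL

open Module Subgroup Cfsg.Agent.Lib.ModRep Cfsg.Agent.Lib.BryLoc
open scoped commutatorElement

section CommSq

variable {F : Type*} [Field F] {S : Type*} [Group S]

theorem two_cases (h2 : (2 : F) ≠ 0) {M : Type*} [AddCommGroup M] [Module F M] {v : M}
    (h : v = -v) : v = 0 := by
  have h1 : (2 : F) • v = 0 := by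
    rw [two_smul]
    nth_rewrite 1 [h]
    rw [neg_add_cancel]
  exact (smul_eq_zero.1 h1).resolve_left h2

/-- squares of elements `a` with `(a² + 1)(a - 1) = 0` in a `2`-group commute -/
theorem comm_sq [Finite S] (hS : IsPGroup 2 S) (h2 : (2 : F) ≠ 0) {a b : S}
    (hgen : ∀ K : Subgroup S, a ∈ K → b ∈ K → K = ⊤) : ∀ n : ℕ, ∀ (M : Type*)
    [AddCommGroup M] [Module F M] [FiniteDimensional F M] (ρ : S →* Module.End F M),
    finrank F M ≤ n → (∀ v, ρ (a * a) (ρ a v - v) = -(ρ a v - v)) →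
    (∀ v, ρ (b * b) (ρ b v - v) = -(ρ b v - v)) →
    ρ (a * a) * ρ (b * b) = ρ (b * b) * ρ (a * a) := by
  classical
  intro n
  induction n with
  | zero =>
    intro M _ _ _ ρ hn _ _
    have : Subsingleton M := Module.finrank_zero_iff.1 (Nat.le_zero.1 hn)
    exact LinearMap.ext fun v => Subsingleton.elim _ _
  | succ n ih =>
    intro M _ _ _ ρ hn ha hb
    have hm : ∀ (x y : S) (v : M), ρ (x * y) v = ρ x (ρ y v) := fun x y v => by
      rw [map_mul, Module.End.mul_apply]
    have h1v : ∀ v : M, ρ 1 v = v := fun v => by rw [map_one]; rfl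
    -- if `a - 1` is injective then `a² = -1`
    have hker : ∀ c : S, (∀ v, ρ (c * c) (ρ c v - v) = -(ρ c v - v)) →
        (∀ v, ρ c v = v → v = 0) → ∀ v, ρ (c * c) v = -v := by
      intro c hc hinj v
      have hs : Function.Surjective (ρ c - 1 : Module.End F M) := by
        rw [← LinearMap.injective_iff_surjective, ← LinearMap.ker_eq_bot, eq_bot_iff]
        intro w hw
        exact hinj w (sub_eq_zero.1 hw)
      obtain ⟨w, rfl⟩ := hs v
      exact hc w
    by_cases hA : ∀ v, ρ a v = v → v = 0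
    · have h := hker a ha hA
      apply LinearMap.ext
      intro v
      rw [Module.End.mul_apply, Module.End.mul_apply, h, h, map_neg]
    by_cases hB : ∀ v, ρ b v = v → v = 0
    · have h := hker b hb hB
      apply LinearMap.ext
      intro v
      rw [Module.End.mul_apply, Module.End.mul_apply, h, h, map_neg]
    push Not at hA hB
    -- the image
    set γ := ρ.toHomUnits with hγ
    have hγv : ∀ g, ((γ g : (Module.End F M)ˣ) : Module.End F M) = ρ g := fun g => rfl
    have hfin : Finite γ.range := Finite.of_surjective _ γ.rangeRestrict_surjective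
    have hT : IsPGroup 2 γ.range := hS.of_surjective _ γ.rangeRestrict_surjective
    by_cases hab : ρ a * ρ b = ρ b * ρ a
    · have h1 : Commute (ρ a) (ρ b) := hab
      rw [map_mul, map_mul]
      exact (h1.mul_left h1).mul_right (h1.mul_left h1)
    -- an element of order two in the second centre
    obtain ⟨m, hmc, hm2, hmz⟩ : ∃ m : S, (∃ s, ρ m * ρ s ≠ ρ s * ρ m) ∧
        (∀ s, ρ (m * m) * ρ s = ρ s * ρ (m * m)) ∧
        ∀ s t, ρ ⁅m, s⁆ * ρ t = ρ t * ρ ⁅m, s⁆ := by
      set T := γ.range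
      set Z := Subgroup.center T
      have hne : Z ≠ ⊤ := by
        intro h0
        apply hab
        have h3 : (⟨γ a, a, rfl⟩ : T) ∈ Z := by rw [h0]; trivial
        have h4 := Subgroup.mem_center_iff.1 h3 ⟨γ b, b, rfl⟩
        exact (congrArg (fun t : T => ((t : (Module.End F M)ˣ) : Module.End F M)) h4).symm
      have hnt : Nontrivial (T ⧸ Z) := QuotientGroup.nontrivial_iff.2 hne
      have hTZ : IsPGroup 2 (T ⧸ Z) := hT.to_quotient Z
      have hcn : Nontrivial (Subgroup.center (T ⧸ Z)) := hTZ.center_nontrivial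
      have hcp : IsPGroup 2 (Subgroup.center (T ⧸ Z)) := hTZ.to_subgroup _
      have h2d : 2 ∣ Nat.card (Subgroup.center (T ⧸ Z)) := by
        obtain ⟨j, hj⟩ := IsPGroup.iff_card.1 hcp
        rw [hj]
        apply dvd_pow_self
        rintro rfl
        rw [pow_zero, Nat.card_eq_one_iff_unique] at hj
        exact not_subsingleton _ hj.1
      obtain ⟨x, hx⟩ := exists_prime_orderOf_dvd_card' (p := 2) h2d
      obtain ⟨⟨_, m, rfl⟩, hm'⟩ := QuotientGroup.mk_surjective (x : T ⧸ Z)
      have hx1 : x ≠ 1 := by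
        rintro rfl
        rw [orderOf_one] at hx
        omega
      have hxx : x * x = 1 := by rw [← pow_two, ← hx, pow_orderOf_eq_one]
      set mT : T := ⟨γ m, m, rfl⟩ with hmT
      refine ⟨m, ?_, ?_, ?_⟩
      · by_contra hcon
        push Not at hcon
        apply hx1
        apply Subtype.ext
        rw [← hm']
        apply (QuotientGroup.eq_one_iff _).2
        rw [Subgroup.mem_center_iff]
        rintro ⟨_, s, rfl⟩
        apply Subtype.ext
        apply Units.ext
        exact (hcon s).symm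
      · intro s
        have h3 : mT * mT ∈ Z := by
          rw [← QuotientGroup.eq_one_iff]
          change ((mT : T ⧸ Z)) * (mT : T ⧸ Z) = 1
          rw [hm']
          exact congrArg Subtype.val hxx
        have h4 := Subgroup.mem_center_iff.1 h3 ⟨γ s, s, rfl⟩
        have h5 := congrArg (fun t : T => ((t : (Module.End F M)ˣ) : Module.End F M)) h4
        change ρ s * (ρ m * ρ m) = (ρ m * ρ m) * ρ s at h5
        rw [map_mul]
        exact h5.symm
      · intro s t
        have h3 : ⁅mT, (⟨γ s, s, rfl⟩ : T)⁆ ∈ Z := by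
          rw [← QuotientGroup.eq_one_iff]
          change ⁅(mT : T ⧸ Z), ((⟨γ s, s, rfl⟩ : T) : T ⧸ Z)⁆ = 1
          rw [hm', commutatorElement_eq_one_iff_mul_comm]
          exact (Subgroup.mem_center_iff.1 x.2 _).symm
        have h4 := Subgroup.mem_center_iff.1 h3 ⟨γ t, t, rfl⟩
        have h5 := congrArg (fun t : T => ((t : (Module.End F M)ˣ) : Module.End F M)) h4
        have h6 : (((⁅mT, (⟨γ s, s, rfl⟩ : T)⁆ : T) : (Module.End F M)ˣ) : Module.End F M) =
            ρ ⁅m, s⁆ := by
          rw [← hγv, map_commutatorElement]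
          rfl
        change ρ t * (((⁅mT, (⟨γ s, s, rfl⟩ : T)⁆ : T) : (Module.End F M)ˣ) : Module.End F M) =
          (((⁅mT, (⟨γ s, s, rfl⟩ : T)⁆ : T) : (Module.End F M)ˣ) : Module.End F M) * ρ t at h5
        rw [h6] at h5
        exact h5.symm
    -- commutators have square one
    have hsq : ∀ s, ρ (⁅m, s⁆ * ⁅m, s⁆) = 1 := by
      intro s
      have h3 : ρ ⁅m, s⁆ * ρ ⁅m, s⁆ = ρ ⁅m * m, s⁆ := by
        have h4 : ⁅m * m, s⁆ = m * ⁅m, s⁆ * m⁻¹ * ⁅m, s⁆ := by
          simp only [commutatorElement_def]; group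
        rw [h4, map_mul, map_mul, map_mul, ← hmz s m, mul_assoc (ρ ⁅m, s⁆), ← map_mul ρ m m⁻¹,
          mul_inv_cancel, map_one, mul_one]
      rw [map_mul, h3]
      have h5 : ⁅m * m, s⁆ = (m * m) * s * (m * m)⁻¹ * s⁻¹ := commutatorElement_def _ _
      rw [h5, map_mul, map_mul, map_mul, hm2 s, mul_assoc (ρ s), ← map_mul ρ (m * m),
        mul_inv_cancel, map_one, mul_one, ← map_mul, mul_inv_cancel, map_one]
    -- a central involution different from `± 1` splits the module
    have hsplit : ∀ z : S, (∀ t, ρ z * ρ t = ρ t * ρ z) → ρ (z * z) = 1 →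
        (∃ v, ρ z v ≠ v) → (∃ v, ρ z v ≠ -v) →
        ρ (a * a) * ρ (b * b) = ρ (b * b) * ρ (a * a) := by
      intro z hz hzz ⟨v₁, hv₁⟩ ⟨v₂, hv₂⟩
      have hzz' : ∀ v, ρ z (ρ z v) = v := fun v => by rw [← hm, hzz]; rfl
      have hz' : ∀ t v, ρ z (ρ t v) = ρ t (ρ z v) := fun t v =>
        congrArg (fun T : Module.End F M => T v) (hz t)
      let P : Submodule F M := LinearMap.ker (ρ z - 1)
      let N : Submodule F M := LinearMap.ker (ρ z + 1)
      have hP : ∀ v, v ∈ P ↔ ρ z v = v := fun v => by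
        change (ρ z - 1) v = 0 ↔ _
        rw [LinearMap.sub_apply, Module.End.one_apply, sub_eq_zero]
      have hN : ∀ v, v ∈ N ↔ ρ z v = -v := fun v => by
        change (ρ z + 1) v = 0 ↔ _
        rw [LinearMap.add_apply, Module.End.one_apply, add_eq_zero_iff_eq_neg]
      have hPi : Inv ρ P := fun g w hw => by
        rw [hP] at hw ⊢
        rw [hz', hw]
      have hNi : Inv ρ N := fun g w hw => by
        rw [hN] at hw ⊢
        rw [hz', hw, map_neg]
      have hPlt : finrank F P < finrank F M := by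
        refine Submodule.finrank_lt fun h0 => hv₁ ?_
        rw [← hP, h0]; trivial
      have hNlt : finrank F N < finrank F M := by
        refine Submodule.finrank_lt fun h0 => hv₂ ?_
        rw [← hN, h0]; trivial
      have hr : ∀ (Y : Submodule F M) (hY : Inv ρ Y) (v : M), finrank F Y < finrank F M → v ∈ Y →
          ρ (a * a) (ρ (b * b) v) = ρ (b * b) (ρ (a * a) v) := by
        intro Y hY v hlt hv
        have h3 := ih Y (subrep ρ Y hY) (by omega) (by
          intro w
          apply Subtype.ext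
          exact ha w) (by
          intro w
          apply Subtype.ext
          exact hb w)
        exact congrArg (fun T : Module.End F Y => ((T ⟨v, hv⟩ : Y) : M)) h3
      apply LinearMap.ext
      intro v
      rw [Module.End.mul_apply, Module.End.mul_apply]
      have h3 : v + ρ z v ∈ P := by rw [hP, map_add, hzz', add_comm]
      have h4 : v - ρ z v ∈ N := by rw [hN, map_sub, hzz', neg_sub]
      have h5 := hr P hPi _ hPlt h3
      have h6 := hr N hNi _ hNlt h4
      have h7 : (2 : F) • v = (v + ρ z v) + (v - ρ z v) := by rw [two_smul]; abel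
      have h8 : (2 : F) • ρ (a * a) (ρ (b * b) v) = (2 : F) • ρ (b * b) (ρ (a * a) v) := by
        rw [← map_smul, ← map_smul, ← map_smul, ← map_smul, h7,
          map_add (ρ (b * b)) (v + ρ z v) (v - ρ z v),
          map_add (ρ (a * a)) (v + ρ z v) (v - ρ z v),
          map_add (ρ (a * a)) (ρ (b * b) (v + ρ z v)), h5, h6, map_add (ρ (b * b))]
      exact (smul_right_injective M h2) h8
    by_contra hfail
    have hpm : ∀ s, (∀ v, ρ ⁅m, s⁆ v = v) ∨ (∀ v, ρ ⁅m, s⁆ v = -v) := by
      intro s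
      by_contra hcon
      push Not at hcon
      exact hfail (hsplit ⁅m, s⁆ (hmz s) (hsq s) hcon.1 hcon.2)
    -- `m` commutes with `a` and `b`
    have hcm : ∀ c : S, (∀ v, ρ (c * c) (ρ c v - v) = -(ρ c v - v)) → (∃ v, ρ c v = v ∧ v ≠ 0) →
        ρ m * ρ c = ρ c * ρ m := by
      intro c hc ⟨v, hv, hv0⟩
      have hmc' : ∀ w, ρ m (ρ c w) = ρ ⁅m, c⁆ (ρ c (ρ m w)) := by
        intro w
        rw [← hm, ← hm, ← hm]
        congr 2
        rw [commutatorElement_def]; group
      rcases hpm c with h3 | h3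
      · apply LinearMap.ext
        intro w
        rw [Module.End.mul_apply, Module.End.mul_apply, hmc', h3]
      · exfalso
        have h4 : ρ c (ρ m v) = -(ρ m v) := by
          have h5 := hmc' v
          rw [hv, h3] at h5
          rw [eq_comm, neg_eq_iff_eq_neg]
          exact h5
        have h6 := hc (ρ m v)
        have h7 : ρ (c * c) (ρ m v) = ρ m v := by rw [hm, h4, map_neg, h4, neg_neg]
        rw [h4, map_sub, map_neg, h7] at h6
        have h8 := two_cases h2 h6
        have h10 := two_cases h2 (sub_eq_zero.1 h8).symm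
        apply hv0
        have h11 := congrArg (ρ m⁻¹) h10
        rw [← hm, inv_mul_cancel, h1v, map_zero] at h11
        exact h11
    obtain ⟨s, hs⟩ := hmc
    let K : Subgroup S :=
      { carrier := {s | ρ m * ρ s = ρ s * ρ m}
        one_mem' := by
          change ρ m * ρ 1 = ρ 1 * ρ m
          rw [map_one, mul_one, one_mul]
        mul_mem' := fun {x y} hx hy => by
          change ρ m * ρ (x * y) = ρ (x * y) * ρ m
          change ρ m * ρ x = ρ x * ρ m at hx
          change ρ m * ρ y = ρ y * ρ m at hy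
          rw [map_mul, ← mul_assoc, hx, mul_assoc, hy, mul_assoc]
        inv_mem' := fun {x} hx => by
          change ρ m * ρ x⁻¹ = ρ x⁻¹ * ρ m
          change ρ m * ρ x = ρ x * ρ m at hx
          calc ρ m * ρ x⁻¹ = ρ x⁻¹ * (ρ x * ρ m) * ρ x⁻¹ := by
                rw [← mul_assoc (ρ x⁻¹), ← map_mul ρ x⁻¹ x, inv_mul_cancel, map_one, one_mul]
            _ = ρ x⁻¹ * ρ m := by
                rw [← hx, mul_assoc, mul_assoc (ρ m), ← map_mul ρ x x⁻¹, mul_inv_cancel, map_one,
                  mul_one] }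
    have hK := hgen K (hcm a ha hA) (hcm b hb hB)
    apply hs
    have h3 : s ∈ K := by rw [hK]; trivial
    exact h3

end CommSq

section Planes

variable {q : ℕ} [hq : Fact q.Prime] {M : Type*} [AddCommGroup M] [Module (ZMod q) M]
  {X : Type*} [Group X]

/-- isometries of a nondegenerate alternating form -/
structure Sy (ρ : X →* Module.End (ZMod q) M) (f : M →ₗ[ZMod q] M →ₗ[ZMod q] ZMod q) : Prop where
  hq2 : q ≠ 2
  hf0 : ∀ x, f x x = 0
  hfi : ∀ g x y, f (ρ g x) (ρ g y) = f x y
  hfn : ∀ x, (∀ y, f x y = 0) → x = 0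

/-- involutions with a commutator space of dimension two -/
structure P2 (ρ : X →* Module.End (ZMod q) M) (τ : X) : Prop where
  tt : ∀ v, ρ τ (ρ τ v) = v
  fin : finrank (ZMod q) (LinearMap.range (ρ τ - 1)) = 2

variable {ρ : X →* Module.End (ZMod q) M} {f : M →ₗ[ZMod q] M →ₗ[ZMod q] ZMod q}

theorem ma (ρ : X →* Module.End (ZMod q) M) (x y : X) (v : M) : ρ (x * y) v = ρ x (ρ y v) := by
  rw [map_mul, Module.End.mul_apply]

theorem ia (ρ : X →* Module.End (ZMod q) M) (x : X) (v : M) : ρ x⁻¹ (ρ x v) = v := by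
  rw [← ma, inv_mul_cancel, map_one]; rfl

theorem ai (ρ : X →* Module.End (ZMod q) M) (x : X) (v : M) : ρ x (ρ x⁻¹ v) = v := by
  rw [← ma, mul_inv_cancel, map_one]; rfl

theorem inj (ρ : X →* Module.End (ZMod q) M) (x : X) {v w : M} (h : ρ x v = ρ x w) : v = w := by
  rw [← ia ρ x v, h, ia]

theorem two_ne (hq2 : q ≠ 2) : (2 : ZMod q) ≠ 0 := by
  intro h0
  have h1 : ((2 : ℕ) : ZMod q) = 0 := by exact_mod_cast h0
  rw [ZMod.natCast_eq_zero_iff] at h1
  exact hq2 ((Nat.prime_dvd_prime_iff_eq hq.out Nat.prime_two).1 h1)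

theorem neg0 (S : Sy ρ f) {v : M} (h : v = -v) : v = 0 := two_cases (two_ne S.hq2) h

theorem half (S : Sy ρ f) {v w : M} (h : v + v = w + w) : v = w := by
  have h1 : (v - w) = -(v - w) := by
    rw [neg_sub, sub_eq_sub_iff_add_eq_add]; exact h
  exact sub_eq_zero.1 (neg0 S h1)

section

variable (S : Sy ρ f)
include S

theorem swap (x y : M) : f y x = - f x y := by
  have h1 := S.hf0 (x + y)
  rw [map_add, map_add, LinearMap.add_apply, LinearMap.add_apply, S.hf0, S.hf0, zero_add,
    add_zero] at h1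
  exact eq_neg_of_add_eq_zero_left h1

theorem adj (g : X) (x y : M) : f x (ρ g y) = f (ρ g⁻¹ x) y := by
  rw [← S.hfi g (ρ g⁻¹ x) y, ai]

theorem P2.mem {τ : X} (T : P2 ρ τ) {v : M} : v ∈ LinearMap.range (ρ τ - 1) ↔ ρ τ v = -v := by
  constructor
  · rintro ⟨w, rfl⟩
    rw [LinearMap.sub_apply, Module.End.one_apply, map_sub, T.tt, neg_sub]
  · intro h
    refine ⟨(-(2 : ZMod q)⁻¹) • v, ?_⟩
    rw [LinearMap.sub_apply, Module.End.one_apply, map_smul, h, smul_neg, neg_smul, neg_neg,
      sub_neg_eq_add, ← two_smul (ZMod q), smul_smul, mul_inv_cancel₀ (two_ne S.hq2), one_smul]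

theorem P2.exists_ne {τ : X} (T : P2 ρ τ) : ∃ v, v ≠ 0 ∧ ρ τ v = -v := by
  by_contra hcon
  push Not at hcon
  have h1 : LinearMap.range (ρ τ - 1) = ⊥ := by
    rw [eq_bot_iff]
    intro v hv
    by_contra h2
    exact hcon v h2 ((P2.mem S T).1 hv)
  have h2 := T.fin
  rw [h1, finrank_bot] at h2
  omega

/-- `f` is nondegenerate on the commutator space -/
theorem P2.exists_nd {τ : X} (T : P2 ρ τ) {v : M} (hv : ρ τ v = -v) (hv0 : v ≠ 0) :
    ∃ n, ρ τ n = -n ∧ f v n ≠ 0 := by
  obtain ⟨n, hn⟩ : ∃ n, f v n ≠ 0 := by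
    by_contra h
    push Not at h
    exact hv0 (S.hfn v h)
  refine ⟨n - ρ τ n, by rw [map_sub, T.tt, neg_sub], ?_⟩
  have h1 : f v (ρ τ n) = - f v n := by
    have h2 := S.hfi τ v n
    rw [hv, map_neg, LinearMap.neg_apply] at h2
    rw [← h2, neg_neg]
  rw [map_sub, h1, sub_neg_eq_add, ← two_mul]
  exact mul_ne_zero (two_ne S.hq2) hn

theorem P2.perp_line {τ : X} (T : P2 ρ τ) {v w : M} (hv : ρ τ v = -v) (hv0 : v ≠ 0)
    (hw : ρ τ w = -w) (hvw : f v w = 0) : ∃ c : ZMod q, w = c • v := by
  obtain ⟨n, hn, hvn⟩ := P2.exists_nd S T hv hv0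
  have hind : LinearIndependent (ZMod q) ![v, n] := by
    rw [LinearIndependent.pair_iff]
    intro a b hab
    constructor
    · have h1 := congrArg (fun z => f z n) hab
      simp only [map_add, map_smul, LinearMap.add_apply, LinearMap.smul_apply, S.hf0, smul_zero,
        add_zero, map_zero, LinearMap.zero_apply] at h1
      exact (smul_eq_zero.1 h1).resolve_right hvn
    · have h1 := congrArg (fun z => f v z) hab
      simp only [map_add, map_smul, S.hf0, smul_zero, zero_add, map_zero] at h1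
      exact (smul_eq_zero.1 h1).resolve_right hvn
  have hle : Submodule.span (ZMod q) (Set.range ![v, n]) ≤ LinearMap.range (ρ τ - 1) := by
    rw [Submodule.span_le]
    rintro _ ⟨i, rfl⟩
    fin_cases i
    · exact (P2.mem S T).2 hv
    · exact (P2.mem S T).2 hn
  have h2f : Module.Finite (ZMod q) (LinearMap.range (ρ τ - 1)) :=
    Module.finite_of_finrank_pos (by rw [T.fin]; norm_num)
  have heq : Submodule.span (ZMod q) (Set.range ![v, n]) = LinearMap.range (ρ τ - 1) := by
    apply Submodule.eq_of_le_of_finrank_eq hle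
    rw [finrank_span_eq_card hind, T.fin, Fintype.card_fin]
  have hwm : w ∈ Submodule.span (ZMod q) (Set.range ![v, n]) := by
    rw [heq]; exact (P2.mem S T).2 hw
  rw [Matrix.range_cons, Matrix.range_cons, Matrix.range_empty, Set.union_empty,
    Set.singleton_union, Submodule.mem_span_pair] at hwm
  obtain ⟨a, b, rfl⟩ := hwm
  rw [map_add, map_smul, map_smul, S.hf0, smul_zero, zero_add] at hvw
  have hb := (smul_eq_zero.1 hvw).resolve_right hvn
  exact ⟨a, by rw [hb, zero_smul, add_zero]⟩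

/-- an isometry with square one on the plane, commuting with `τ`, is `± 1` on the plane -/
theorem P2.pm {τ : X} (T : P2 ρ τ) {t : X} (ht : ∀ v, ρ τ v = -v → ρ t (ρ t v) = v)
    (htτ : ∀ v, ρ τ v = -v → ρ τ (ρ t v) = -(ρ t v)) :
    (∀ v, ρ τ v = -v → ρ t v = v) ∨ (∀ v, ρ τ v = -v → ρ t v = -v) := by
  by_cases h : ∃ v, v ≠ 0 ∧ ρ τ v = -v ∧ ρ t v = v
  · left
    obtain ⟨v, hv0, hv, hvt⟩ := h
    intro w hw
    have hn : ρ τ (w - ρ t w) = -(w - ρ t w) := by rw [map_sub, hw, htτ w hw]; abel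
    have hn' : ρ t (w - ρ t w) = -(w - ρ t w) := by rw [map_sub, ht w hw]; abel
    have h1 : f v (w - ρ t w) = 0 := by
      have h2 := S.hfi t v (w - ρ t w)
      rw [hvt, hn', map_neg] at h2
      have h3 : (2 : ZMod q) * f v (w - ρ t w) = 0 := by
        rw [two_mul]
        nth_rewrite 1 [← h2]
        rw [neg_add_cancel]
      exact (mul_eq_zero.1 h3).resolve_left (two_ne S.hq2)
    obtain ⟨c, hc⟩ := P2.perp_line S T hv hv0 hn h1
    have h2 : ρ t (w - ρ t w) = w - ρ t w := by rw [hc, map_smul, hvt]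
    rw [h2] at hn'
    exact (sub_eq_zero.1 (neg0 S hn')).symm
  · right
    push Not at h
    intro w hw
    by_contra hne
    have h1 : w + ρ t w ≠ 0 := by
      intro h2
      exact hne (eq_neg_of_add_eq_zero_right h2)
    refine h _ h1 (by rw [map_add, hw, htτ w hw]; abel) ?_
    rw [map_add, ht w hw, add_comm]

/-- two commuting involutions with commutator planes -/
theorem P2.dich {τ τ' : X} (T : P2 ρ τ) (T' : P2 ρ τ') (hc : ∀ v, ρ τ (ρ τ' v) = ρ τ' (ρ τ v)) :
    (∀ v, ρ τ v = ρ τ' v) ∨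
      ((∀ v, ρ τ v = -v → ρ τ' v = v) ∧ ∀ v, ρ τ' v = -v → ρ τ v = v) := by
  rcases P2.pm S T (t := τ') (fun v _ => T'.tt v) (fun v hv => by rw [hc, hv, map_neg]) with h | h
  · right
    refine ⟨h, fun v hv => ?_⟩
    have h1 : ρ τ (v - ρ τ v) = -(v - ρ τ v) := by rw [map_sub, T.tt, neg_sub]
    have h2 := h _ h1
    have h3 : ρ τ' (v - ρ τ v) = -(v - ρ τ v) := by
      rw [map_sub, ← hc, hv, map_neg]; abel
    rw [h2] at h3
    exact (sub_eq_zero.1 (neg0 S h3)).symm
  · left
    have hle : LinearMap.range (ρ τ - 1) ≤ LinearMap.range (ρ τ' - 1) := by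
      intro v hv
      exact (P2.mem S T').2 (h v ((P2.mem S T).1 hv))
    have h2f : Module.Finite (ZMod q) (LinearMap.range (ρ τ' - 1)) :=
      Module.finite_of_finrank_pos (by rw [T'.fin]; norm_num)
    have heq := Submodule.eq_of_le_of_finrank_eq hle (by rw [T.fin, T'.fin])
    have hfix : ∀ v, ρ τ v = v → ρ τ' v = v := by
      intro v hv
      have h1 : ρ τ' (v - ρ τ' v) = -(v - ρ τ' v) := by rw [map_sub, T'.tt, neg_sub]
      have h2 : ρ τ (v - ρ τ' v) = -(v - ρ τ' v) := by
        rw [← P2.mem S T, heq, P2.mem S T']; exact h1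
      have h3 : ρ τ (v - ρ τ' v) = v - ρ τ' v := by rw [map_sub, hc, hv]
      rw [h3] at h2
      exact (sub_eq_zero.1 (neg0 S h2)).symm
    intro v
    apply half S
    have h1 : ρ τ' (v - ρ τ v) = -(v - ρ τ v) := h _ (by rw [map_sub, T.tt, neg_sub])
    have h2 : ρ τ' (v + ρ τ v) = v + ρ τ v := hfix _ (by rw [map_add, T.tt, add_comm])
    have h3 : ρ τ' v + ρ τ' v = ρ τ' (v - ρ τ v) + ρ τ' (v + ρ τ v) := by
      rw [← map_add, ← map_add]; congr 1; abel
    rw [h3, h1, h2]
    abel

end

end Planes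

end Cfsg.Agent.Lib.BryTL
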