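import Cfsg.Agent.Lib.BryTL

/-!
Bryukhanova's theorem: elements acting like transvections of order `2 ^ b`, continued (helper59).
-/

set_option autoImplicit false

namespace Cfsg.Agent.Lib.BryTL

open Module Subgroup Cfsg.Agent.Lib.ModRep Cfsg.Agent.Lib.BryLoc
open scoped commutatorElement

variable {q : ℕ} [hq : Fact q.Prime] {M : Type*} [AddCommGroup M] [Module (ZMod q) M]
  {X : Type*} [Group X] {ρ : X →* Module.End (ZMod q) M}
  {f : M →ₗ[ZMod q] M →ₗ[ZMod q] ZMod q} {x x' : X} {b : ℕ}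

theorem TL.tt (T : TL ρ x b) (v : M) : ρ (x ^ 2 ^ (b - 1)) (ρ (x ^ 2 ^ (b - 1)) v) = v := by
  rw [← ma, ← pow_add, ← two_mul, ← pow_succ']
  have h1 : b - 1 + 1 = b := by have := T.two_le; omega
  rw [h1, T.pow]; rfl

theorem TL.p2 (T : TL ρ x b) : P2 ρ (x ^ 2 ^ (b - 1)) := ⟨TL.tt T, T.fin⟩

theorem comm_pow_self (ρ : X →* Module.End (ZMod q) M) (x : X) (n : ℕ) (v : M) :
    ρ (x ^ n) (ρ x v) = ρ x (ρ (x ^ n) v) := by
  rw [← ma, ← ma, ← pow_succ, ← pow_succ']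

theorem TL.moved (T : TL ρ x b) (v : M) :
    ρ (x ^ 2 ^ (b - 1)) (ρ x v - v) = -(ρ x v - v) := by
  have h1 := T.triv (v + ρ (x ^ 2 ^ (b - 1)) v) (by rw [map_add, TL.tt T, add_comm])
  rw [map_add] at h1
  rw [map_sub, comm_pow_self, neg_sub, sub_eq_sub_iff_add_eq_add, add_comm, h1]

theorem TL.conj (T : TL ρ x b) (y : X) : TL ρ (y * x * y⁻¹) b := by
  refine ⟨T.two_le, ?_, ?_, ?_⟩
  · rw [conj_pow, map_mul, map_mul, T.pow, mul_one, ← map_mul, mul_inv_cancel, map_one]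
  · rw [conj_pow]
    have h1 : LinearMap.range (ρ (y * x ^ 2 ^ (b - 1) * y⁻¹) - 1) =
        (LinearMap.range (ρ (x ^ 2 ^ (b - 1)) - 1)).map (ρ y) := by
      ext w
      constructor
      · rintro ⟨v, rfl⟩
        refine ⟨ρ (x ^ 2 ^ (b - 1)) (ρ y⁻¹ v) - ρ y⁻¹ v, ⟨ρ y⁻¹ v, rfl⟩, ?_⟩
        rw [map_sub, ai, LinearMap.sub_apply, ma, ma]; rfl
      · rintro ⟨_, ⟨v, rfl⟩, rfl⟩
        refine ⟨ρ y v, ?_⟩
        rw [LinearMap.sub_apply, LinearMap.sub_apply, ma, ma, ia, map_sub]; rfl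
    rw [h1]
    exact ((Submodule.equivMapOfInjective (ρ y) (fun _ _ h => inj ρ y h) _).finrank_eq.symm).trans
      T.fin
  · intro v hv
    rw [conj_pow, ma, ma] at hv
    have h1 := congrArg (ρ y⁻¹) hv
    rw [ia] at h1
    rw [ma, ma, T.triv _ h1, ai]

theorem TL.comm2 [Finite M] [Finite X] (S : Sy ρ f) (T : TL ρ x b) (T' : TL ρ x' b)
    {P : Subgroup X} (hP : IsPGroup 2 P) (hx : x ∈ P) (hx' : x' ∈ P) (v : M) :
    ρ (x ^ 2 ^ (b - 1)) (ρ (x' ^ 2 ^ (b - 1)) v) =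
      ρ (x' ^ 2 ^ (b - 1)) (ρ (x ^ 2 ^ (b - 1)) v) := by
  have hb2 := T.two_le
  have hpow : ∀ y : X, y ^ 2 ^ (b - 2) * y ^ 2 ^ (b - 2) = y ^ 2 ^ (b - 1) := by
    intro y
    rw [← pow_add, ← two_mul, ← pow_succ']
    congr 2
    omega
  set A : Subgroup X := closure {x ^ 2 ^ (b - 2), x' ^ 2 ^ (b - 2)} with hA
  have ha : x ^ 2 ^ (b - 2) ∈ A := subset_closure (by simp)
  have ha' : x' ^ 2 ^ (b - 2) ∈ A := subset_closure (by simp)
  have hAP : A ≤ P := by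
    rw [hA, closure_le]
    rintro y (rfl | rfl)
    · exact pow_mem hx _
    · exact pow_mem hx' _
  have hmov : ∀ (y : X) (T : TL ρ y b) (v : M),
      ρ (y ^ 2 ^ (b - 1)) (ρ (y ^ 2 ^ (b - 2)) v - v) = -(ρ (y ^ 2 ^ (b - 2)) v - v) := by
    intro y T v
    have h0 : ∀ n : ℕ, ρ (y ^ n) (v + ρ (y ^ 2 ^ (b - 1)) v) = v + ρ (y ^ 2 ^ (b - 1)) v := by
      intro n
      induction n with
      | zero => rw [pow_zero, map_one]; rfl
      | succ n ih =>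
        rw [pow_succ, ma, T.triv _ (by rw [map_add, TL.tt T, add_comm]), ih]
    have h1 := h0 (2 ^ (b - 2))
    rw [map_add, ← ma, ← pow_add] at h1
    rw [map_sub, ← ma, ← pow_add, neg_sub, sub_eq_sub_iff_add_eq_add, add_comm,
      add_comm (2 ^ (b - 1)), h1]
  have h1 := comm_sq (F := ZMod q) (S := A) (hP.to_le hAP) (two_ne S.hq2)
    (a := ⟨_, ha⟩) (b := ⟨_, ha'⟩) (by
      intro K hK hK'
      rw [eq_top_iff]
      rintro ⟨y, hy⟩ -
      have h2 : closure {x ^ 2 ^ (b - 2), x' ^ 2 ^ (b - 2)} ≤ K.map A.subtype := by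
        rw [closure_le]
        rintro y (rfl | rfl)
        · exact ⟨_, hK, rfl⟩
        · exact ⟨_, hK', rfl⟩
      obtain ⟨z, hz, hz'⟩ := h2 hy
      have h3 : z = ⟨y, hy⟩ := Subtype.ext hz'
      rw [← h3]; exact hz) (finrank (ZMod q) M) M (ρ.comp A.subtype) le_rfl (by
      intro v
      change ρ (x ^ 2 ^ (b - 2) * x ^ 2 ^ (b - 2)) (ρ (x ^ 2 ^ (b - 2)) v - v) = _
      rw [hpow]
      exact hmov x T v) (by
      intro v
      change ρ (x' ^ 2 ^ (b - 2) * x' ^ 2 ^ (b - 2)) (ρ (x' ^ 2 ^ (b - 2)) v - v) = _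
      rw [hpow]
      exact hmov x' T' v)
  have h2 := congrArg (fun T : Module.End (ZMod q) M => T v) h1
  change ρ (x ^ 2 ^ (b - 2) * x ^ 2 ^ (b - 2)) (ρ (x' ^ 2 ^ (b - 2) * x' ^ 2 ^ (b - 2)) v) =
    ρ (x' ^ 2 ^ (b - 2) * x' ^ 2 ^ (b - 2)) (ρ (x ^ 2 ^ (b - 2) * x ^ 2 ^ (b - 2)) v) at h2
  rwa [hpow, hpow] at h2

theorem disj_comm (S : Sy ρ f) (T : TL ρ x b) (T' : TL ρ x' b)
    (h1 : ∀ v, ρ (x ^ 2 ^ (b - 1)) v = -v → ρ (x' ^ 2 ^ (b - 1)) v = v)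
    (h2 : ∀ v, ρ (x' ^ 2 ^ (b - 1)) v = -v → ρ (x ^ 2 ^ (b - 1)) v = v) (v : M) :
    ρ x (ρ x' v) = ρ x' (ρ x v) := by
  have hm : ∀ v, ρ (x ^ 2 ^ (b - 1)) v = -v → ρ x (ρ x' v) = ρ x' (ρ x v) := by
    intro v hv
    rw [T'.triv v (h1 v hv), T'.triv (ρ x v) (h1 _ (by rw [comm_pow_self, hv, map_neg]))]
  have hp : ∀ v, ρ (x ^ 2 ^ (b - 1)) v = v → ρ x (ρ x' v) = ρ x' (ρ x v) := by
    intro v hv
    have h3 := h2 _ (TL.moved T' v)
    rw [map_sub, hv, sub_left_inj] at h3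
    rw [T.triv _ h3, T.triv _ hv]
  apply half S
  have h3 := hm (v - ρ (x ^ 2 ^ (b - 1)) v) (by rw [map_sub, TL.tt T, neg_sub])
  have h4 := hp (v + ρ (x ^ 2 ^ (b - 1)) v) (by rw [map_add, TL.tt T, add_comm])
  have h5 : v + v = (v - ρ (x ^ 2 ^ (b - 1)) v) + (v + ρ (x ^ 2 ^ (b - 1)) v) := by abel
  rw [← map_add, ← map_add, ← map_add, ← map_add, h5,
    map_add (ρ x') (v - ρ (x ^ 2 ^ (b - 1)) v) (v + ρ (x ^ 2 ^ (b - 1)) v),
    map_add (ρ x) (v - ρ (x ^ 2 ^ (b - 1)) v) (v + ρ (x ^ 2 ^ (b - 1)) v),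
    map_add (ρ x) (ρ x' (v - ρ (x ^ 2 ^ (b - 1)) v)), h3, h4, map_add (ρ x')]

theorem mul_pow_of_comm (h : ∀ v, ρ x (ρ x' v) = ρ x' (ρ x v)) (n : ℕ) (v : M) :
    ρ ((x⁻¹ * x') ^ n) v = ρ (x ^ n)⁻¹ (ρ (x' ^ n) v) := by
  have h1 : Commute (ρ x⁻¹) (ρ x') := by
    apply LinearMap.ext
    intro v
    rw [Module.End.mul_apply, Module.End.mul_apply]
    apply inj ρ x
    rw [ai, h, ai]
  rw [map_pow, map_mul, h1.mul_pow, Module.End.mul_apply, ← map_pow, ← map_pow, inv_pow]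

/-- the dichotomy for conjugates -/
theorem TL.dich [Finite M] [Finite X] (S : Sy ρ f) (T : TL ρ x b) (T' : TL ρ x' b)
    {P : Subgroup X} (hP : IsPGroup 2 P) (hx : x ∈ P) (hx' : x' ∈ P) :
    (∀ v, ρ (x ^ 2 ^ (b - 1)) v = ρ (x' ^ 2 ^ (b - 1)) v) ∨
      ((∀ v, ρ (x ^ 2 ^ (b - 1)) v = -v → ρ (x' ^ 2 ^ (b - 1)) v = v) ∧
        ∀ v, ρ (x' ^ 2 ^ (b - 1)) v = -v → ρ (x ^ 2 ^ (b - 1)) v = v) :=
  P2.dich S (TL.p2 T) (TL.p2 T') (TL.comm2 S T T' hP hx hx')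

theorem lemA [Finite M] [Finite X] (S : Sy ρ f) (T : TL ρ x b) {P : Subgroup X}
    (hP : IsPGroup 2 (P ⊔ zpowers x : Subgroup X)) (hxP : x ∈ normalizer (P : Set X)) {y : X}
    (hy : y ∈ P) : ∃ w ∈ P, ∀ v, ρ ⁅x ^ 2 ^ (b - 1), y⁆ v = ρ (w * w) v := by
  have hb2 := T.two_le
  have T' := TL.conj T y
  have hxm : x ∈ P ⊔ zpowers x := mem_sup_right (mem_zpowers x)
  have hym : y ∈ P ⊔ zpowers x := mem_sup_left hy
  rcases TL.dich S T' T hP (mul_mem (mul_mem hym hxm) (inv_mem hym)) hxm with h | ⟨h1, h2⟩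
  · refine ⟨1, one_mem _, fun v => ?_⟩
    rw [mul_one, map_one, commutatorElement_def]
    have h3 : x ^ 2 ^ (b - 1) * y * (x ^ 2 ^ (b - 1))⁻¹ * y⁻¹ =
        x ^ 2 ^ (b - 1) * ((y * x * y⁻¹) ^ 2 ^ (b - 1))⁻¹ := by
      rw [conj_pow]; group
    rw [h3, ma]
    have h4 := h (ρ ((y * x * y⁻¹) ^ 2 ^ (b - 1))⁻¹ v)
    rw [← h4, ai]; rfl
  · have hc := disj_comm S T' T h1 h2
    refine ⟨((y * x * y⁻¹)⁻¹ * x) ^ 2 ^ (b - 2), pow_mem ?_ _, fun v => ?_⟩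
    · have h3 : (y * x * y⁻¹)⁻¹ * x = y * (x⁻¹ * y⁻¹ * x) := by group
      rw [h3]
      refine mul_mem hy ?_
      have := (mem_normalizer_iff.1 (inv_mem hxP) y⁻¹).1 (inv_mem hy)
      rwa [inv_inv] at this
    · have h3 : ((y * x * y⁻¹)⁻¹ * x) ^ 2 ^ (b - 2) * ((y * x * y⁻¹)⁻¹ * x) ^ 2 ^ (b - 2) =
          ((y * x * y⁻¹)⁻¹ * x) ^ 2 ^ (b - 1) := by
        rw [← pow_add, ← two_mul, ← pow_succ']
        congr 2
        omega
      rw [h3, mul_pow_of_comm hc]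
      have h4 : ⁅x ^ 2 ^ (b - 1), y⁆ = x ^ 2 ^ (b - 1) * ((y * x * y⁻¹) ^ 2 ^ (b - 1))⁻¹ := by
        rw [commutatorElement_def, conj_pow]; group
      rw [h4, ma]
      apply inj ρ ((y * x * y⁻¹) ^ 2 ^ (b - 1))
      rw [ai, TL.comm2 S T' T hP (mul_mem (mul_mem hym hxm) (inv_mem hym)) hxm, ai]

section L3

variable [Finite M] [Finite X] {C : Subgroup X} {t : X}

theorem l3 (S : Sy ρ f) (T : TL ρ x b) (ht : t ∈ C) (hxC : x ∈ normalizer (C : Set X))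
    (hP : IsPGroup 2 (C ⊔ zpowers x : Subgroup X))
    (h' : TL ρ (x * t) b ∨ ∀ v, ρ ((x * t) ^ 2 ^ (b - 1)) v = v)
    (h4 : ∀ c ∈ C, ∀ v, ρ (c ^ 4) v = v)
    (hZ : ∀ c ∈ C, ∀ d ∈ C, ∀ v, ρ (c * c) (ρ d v) = ρ d (ρ (c * c) v)) :
    ∀ c ∈ C, ∀ v, ρ ((x ^ 2 ^ (b - 1))⁻¹ * (x * t) ^ 2 ^ (b - 1)) (ρ c v) =
      ρ c (ρ ((x ^ 2 ^ (b - 1))⁻¹ * (x * t) ^ 2 ^ (b - 1)) v) := by
  have hb2 := T.two_le
  have hxm : x ∈ C ⊔ zpowers x := mem_sup_right (mem_zpowers x)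
  have hCm : ∀ c ∈ C, c ∈ C ⊔ zpowers x := fun c hc => mem_sup_left hc
  -- powers of elements of `C`
  have hC3 : 3 ≤ b → ∀ c ∈ C, ∀ v, ρ (c ^ 2 ^ (b - 1)) v = v := by
    intro hb c hc v
    have h1 : c ^ 2 ^ (b - 1) = (c ^ 2 ^ (b - 3)) ^ 4 := by
      rw [← pow_mul]
      congr 1
      have : b - 1 = b - 3 + 2 := by omega
      rw [this, pow_add]
      norm_num
    rw [h1]
    exact h4 _ (pow_mem hc _) v
  rcases h' with T' | h'
  · rcases TL.dich S T T' hP hxm (mul_mem hxm (hCm t ht)) with h | ⟨h1, h2⟩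
    · have hθ : ∀ v, ρ ((x ^ 2 ^ (b - 1))⁻¹ * (x * t) ^ 2 ^ (b - 1)) v = v := fun v => by
        rw [ma, ← h, ia]
      intro c _ v
      rw [hθ, hθ]
    · have hc := disj_comm S T T' h1 h2
      have hθ : ∀ v, ρ ((x ^ 2 ^ (b - 1))⁻¹ * (x * t) ^ 2 ^ (b - 1)) v =
          ρ (t ^ 2 ^ (b - 1)) v := by
        intro v
        have h3 := mul_pow_of_comm hc (2 ^ (b - 1)) v
        rw [inv_mul_cancel_left] at h3
        rw [ma, h3]
      intro c hc' v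
      rw [hθ, hθ]
      by_cases hb3 : 3 ≤ b
      · rw [hC3 hb3 t ht, hC3 hb3 t ht]
      · have h5 : b - 1 = 1 := by omega
        rw [h5, pow_one, pow_two]
        exact hZ t ht c hc' v
  · have hθ : ∀ v, ρ ((x ^ 2 ^ (b - 1))⁻¹ * (x * t) ^ 2 ^ (b - 1)) v =
        ρ (x ^ 2 ^ (b - 1)) v := by
      intro v
      rw [ma, h']
      apply inj ρ (x ^ 2 ^ (b - 1))
      rw [ai, TL.tt T]
    by_contra hcon
    push Not at hcon
    obtain ⟨c, hc, v₀, hv₀⟩ := hcon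
    rw [hθ, hθ] at hv₀
    -- `c` moves the plane of `x`
    have Tc := TL.conj T c
    have hcm := hCm c hc
    have hne : ¬ ∀ v, ρ (x ^ 2 ^ (b - 1)) v = ρ ((c * x * c⁻¹) ^ 2 ^ (b - 1)) v := by
      intro h
      apply hv₀
      rw [h, conj_pow, ma, ma, ia]
    obtain ⟨hd1, hd2⟩ := (TL.dich S T Tc hP hxm
      (mul_mem (mul_mem hcm hxm) (inv_mem hcm))).resolve_left hne
    have hb : b = 2 := by
      by_contra hb
      have hb3 : 3 ≤ b := by omega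
      have hw : x⁻¹ * (c * x * c⁻¹) ∈ C := by
        have h3 : x⁻¹ * (c * x * c⁻¹) = (x⁻¹ * c * x) * c⁻¹ := by group
        rw [h3]
        refine mul_mem ?_ (inv_mem hc)
        have := (mem_normalizer_iff.1 (inv_mem hxC) c).1 hc
        rwa [inv_inv] at this
      apply hne
      intro v
      have h3 := mul_pow_of_comm (disj_comm S T Tc hd1 hd2) (2 ^ (b - 1)) v
      rw [hC3 hb3 _ hw] at h3
      have h5 := congrArg (ρ (x ^ 2 ^ (b - 1))) h3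
      rwa [ai] at h5
    subst hb
    simp only [show 2 - 1 = 1 from rfl, pow_one] at *
    have hxx : ∀ v, ρ x (ρ x v) = ρ (x ^ 2) v := fun v => by rw [← ma, ← pow_two]
    have hx' : ∀ v, ρ x (ρ t (ρ x (ρ t v))) = v := fun v => by
      rw [← ma, ← ma, ← ma]
      have h3 : x * t * x * t = (x * t) ^ 2 := by rw [pow_two]; group
      rw [h3, h']
    obtain ⟨v, hv0, hv⟩ := P2.exists_ne S (TL.p2 T)
    simp only [show 2 - 1 = 1 from rfl, pow_one] at hv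
    by_cases htc : ∀ v, ρ (x ^ 2) (ρ t v) = ρ t (ρ (x ^ 2) v)
    · -- `t²` is trivial
      have h5 : ∀ v, ρ (x ^ 2) v = v → ρ t (ρ t v) = v := by
        intro v hv
        have h6 := T.triv (ρ t v) (by
          simp only [show 2 - 1 = 1 from rfl, pow_one]
          rw [htc, hv])
        have h7 := hx' v
        rw [h6] at h7
        have h8 := T.triv (ρ t (ρ t v)) (by
          simp only [show 2 - 1 = 1 from rfl, pow_one]
          rw [htc, htc, hv])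
        rwa [h8] at h7
      have h6 : ∀ v, ρ (x ^ 2) v = -v → ρ t (ρ t v) = v := by
        intro v hv
        have h7 : ρ (x ^ 2) (ρ c v) = ρ c v := by
          apply hd2
          rw [conj_pow, ma, ma, ia, hv, map_neg]
        have h8 := h5 _ h7
        rw [← ma, hZ t ht c hc] at h8
        have h9 := inj ρ c h8
        rwa [ma] at h9
      rcases P2.pm S (TL.p2 T) (t := t) (by
          simp only [show 2 - 1 = 1 from rfl, pow_one]
          exact h6) (by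
          simp only [show 2 - 1 = 1 from rfl, pow_one]
          intro v hv
          rw [htc, hv, map_neg]) with h7 | h7
      · simp only [show 2 - 1 = 1 from rfl, pow_one] at h7
        have h8 := hx' v
        rw [h7 v hv, h7 (ρ x v) (by rw [comm_pow_self, hv, map_neg]), hxx, hv] at h8
        exact hv0 (neg0 S h8.symm)
      · simp only [show 2 - 1 = 1 from rfl, pow_one] at h7
        have h8 := hx' v
        rw [h7 v hv, map_neg, map_neg, h7 (ρ x v) (by rw [comm_pow_self, hv, map_neg]), neg_neg,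
          hxx, hv] at h8
        exact hv0 (neg0 S h8.symm)
    · -- `t` moves the plane
      have htm := hCm t ht
      have Tt := TL.conj T t
      have hne' : ¬ ∀ v, ρ (x ^ 2 ^ (2 - 1)) v = ρ ((t * x * t⁻¹) ^ 2 ^ (2 - 1)) v := by
        intro h
        apply htc
        intro v
        simp only [show 2 - 1 = 1 from rfl, pow_one] at h
        rw [h, conj_pow, ma, ma, ia]
      obtain ⟨-, he2⟩ := (TL.dich S T Tt hP hxm
        (mul_mem (mul_mem htm hxm) (inv_mem htm))).resolve_left hne'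
      simp only [show 2 - 1 = 1 from rfl, pow_one] at he2
      have h5 : ∀ v, ρ (x ^ 2) v = -v → ρ x (ρ t (ρ t v)) = v := by
        intro v hv
        have h6 : ρ (x ^ 2) (ρ t v) = ρ t v := by
          apply he2
          rw [conj_pow, ma, ma, ia, hv, map_neg]
        have h7 := T.triv (ρ t v) (by
          simp only [show 2 - 1 = 1 from rfl, pow_one]; exact h6)
        have h8 := hx' v
        rwa [h7] at h8
      have h6 : ∀ v, ρ (x ^ 2) v = -v → ρ t (ρ t v) = ρ x⁻¹ v := by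
        intro v hv
        apply inj ρ x
        rw [h5 v hv, ai]
      have h7 : ρ (x ^ 2) (ρ x⁻¹ v) = -(ρ x⁻¹ v) := by
        apply inj ρ x
        rw [← comm_pow_self, map_neg, ai, hv]
      have h8 := h4 t ht v
      have h9 : t ^ 4 = t * t * (t * t) := by simp only [pow_succ, pow_zero, one_mul, mul_assoc]
      rw [h9, ma, ma, ma, h6 v hv, h6 _ h7] at h8
      have h10 := congrArg (ρ (x ^ 2)) h8
      rw [← hxx, ← hxx, ai, ai, hxx, hv] at h10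
      exact hv0 (neg0 S h10)

theorem l3' (S : Sy ρ f) (T : TL ρ x b) (ht : t ∈ C) (hxC : x ∈ normalizer (C : Set X))
    (hP : IsPGroup 2 (C ⊔ zpowers x : Subgroup X))
    (h' : TL ρ (x * t) b ∨ ∀ v, ρ ((x * t) ^ 2 ^ (b - 1)) v = v)
    (h2 : ∀ c ∈ C, ∀ v, ρ (c * c) v = v) :
    ∀ v, ρ ((x ^ 2 ^ (b - 1))⁻¹ * (x * t) ^ 2 ^ (b - 1)) v = v := by
  have hb2 := T.two_le
  have hxm : x ∈ C ⊔ zpowers x := mem_sup_right (mem_zpowers x)
  have hCm : ∀ c ∈ C, c ∈ C ⊔ zpowers x := fun c hc => mem_sup_left hc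
  have hC2 : ∀ c ∈ C, ∀ v, ρ (c ^ 2 ^ (b - 1)) v = v := by
    intro c hc v
    have h1 : c ^ 2 ^ (b - 1) = (c ^ 2 ^ (b - 2)) * (c ^ 2 ^ (b - 2)) := by
      rw [← pow_add, ← two_mul, ← pow_succ']
      congr 2
      omega
    rw [h1]
    exact h2 _ (pow_mem hc _) v
  rcases h' with T' | h'
  · rcases TL.dich S T T' hP hxm (mul_mem hxm (hCm t ht)) with h | ⟨h1, h2⟩
    · intro v
      rw [ma, ← h, ia]
    · have hc := disj_comm S T T' h1 h2
      intro v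
      have h3 := mul_pow_of_comm hc (2 ^ (b - 1)) v
      rw [inv_mul_cancel_left, hC2 t ht] at h3
      rw [ma, ← h3]
  · exfalso
    have h3 := l3 S T ht hxC hP (Or.inr h') (fun c hc v => by
      have h5 : c ^ 4 = c * c * (c * c) := by simp only [pow_succ, pow_zero, one_mul, mul_assoc]
      rw [h5, ma, h2 c hc, h2 c hc]) (fun c hc d _ v => by rw [h2 c hc, h2 c hc]) t ht
    have hθ : ∀ v, ρ ((x ^ 2 ^ (b - 1))⁻¹ * (x * t) ^ 2 ^ (b - 1)) v =
        ρ (x ^ 2 ^ (b - 1)) v := by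
      intro v
      rw [ma, h']
      apply inj ρ (x ^ 2 ^ (b - 1))
      rw [ai, TL.tt T]
    have htc : ∀ v, ρ (x ^ 2 ^ (b - 1)) (ρ t v) = ρ t (ρ (x ^ 2 ^ (b - 1)) v) := by
      intro v
      have h5 := h3 v
      rwa [hθ, hθ] at h5
    obtain ⟨v, hv0, hv⟩ := P2.exists_ne S (TL.p2 T)
    obtain ⟨s, hs, hst⟩ : ∃ s : ZMod q, (s = 1 ∨ s = -1) ∧
        ∀ v, ρ (x ^ 2 ^ (b - 1)) v = -v → ρ t v = s • v := by
      rcases P2.pm S (TL.p2 T) (t := t) (fun v _ => by rw [← ma, h2 t ht]) (fun v hv => by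
        rw [htc, hv, map_neg]) with h5 | h5
      · exact ⟨1, Or.inl rfl, fun v hv => by rw [one_smul]; exact h5 v hv⟩
      · exact ⟨-1, Or.inr rfl, fun v hv => by rw [neg_one_smul]; exact h5 v hv⟩
    have h5 : ∀ (n : ℕ), ρ ((x * t) ^ n) v = s ^ n • ρ (x ^ n) v := by
      intro n
      induction n with
      | zero => rw [pow_zero, pow_zero, pow_zero, one_smul]
      | succ n ih =>
        have h6 : ρ (x ^ 2 ^ (b - 1)) (ρ (x ^ n) v) = -(ρ (x ^ n) v) := by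
          rw [← ma, ← pow_add, add_comm, pow_add, ma, hv, map_neg]
        rw [pow_succ', ma, ih, map_smul, ma, hst _ h6, map_smul, smul_smul, pow_succ' x, ma,
          pow_succ]
    have h6 := h5 (2 ^ (b - 1))
    have h7 : s ^ 2 ^ (b - 1) = 1 := by
      have h8 : b - 1 = b - 2 + 1 := by omega
      rw [h8, pow_succ', pow_mul]
      rcases hs with rfl | rfl <;> simp
    rw [h', h7, one_smul, hv] at h6
    exact hv0 (neg0 S h6)

end L3

end Cfsg.Agent.Lib.BryTL
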