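import Cfsg.Agent.Lib.BryMain
import Cfsg.Agent.Lib.HHExp

/-!
Bryukhanova's theorem: conclusion for solvable groups (helper59).
-/

set_option autoImplicit false

namespace Cfsg.Agent.Lib.BryMain

open Module Subgroup Cfsg Cfsg.Agent.Lib.PLength

universe u

/-- a `2`-soluble group all of whose odd order sections are solvable is solvable. -/
theorem isSolvable_of_two {G : Type u} [Group G] [Finite G]
    (hodd : ∀ (A : Type u) [Group A] [Finite A], Odd (Nat.card A) → Group.IsSolvable A)
    (h : IsPSolvable 2 G) : Group.IsSolvable G := by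
  have h2f : Fact (Nat.Prime 2) := ⟨Nat.prime_two⟩
  obtain ⟨n, H, h0, hn, hmono, hnorm, hstep⟩ := h
  have key : ∀ i : Fin (n + 1), Group.IsSolvable (H i) := by
    intro i
    induction i using Fin.induction with
    | zero => rw [h0]; infer_instance
    | succ i ih =>
      have := hnorm i.castSucc
      have hle : H i.castSucc ≤ H i.succ := hmono (Fin.castSucc_le_succ i)
      set f := (QuotientGroup.mk' (H i.castSucc)).subgroupMap (H i.succ) with hf
      have hsol : Group.IsSolvable ((H i.succ).map (QuotientGroup.mk' (H i.castSucc))) := by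
        rcases hstep i with ⟨m, hm⟩ | hc
        · have h1 : IsPGroup 2 ((H i.succ).map (QuotientGroup.mk' (H i.castSucc))) := by
            apply IsPGroup.of_card (n := m)
            rw [H32PSolv.card_map_mk, hm]
          have : Group.IsNilpotent _ := h1.isNilpotent
          infer_instance
        · apply hodd
          rw [H32PSolv.card_map_mk, ← Nat.coprime_two_right]
          exact hc
      refine Group.isSolvable_of_ker_le_range (inclusion hle) f ?_
      intro x hx
      have h1 : (x : G) ∈ H i.castSucc :=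
        (QuotientGroup.eq_one_iff (x : G)).1 (congrArg Subtype.val hx)
      exact ⟨⟨x, h1⟩, rfl⟩
  have h1 := key (Fin.last n)
  rw [hn] at h1
  exact Group.isSolvable_of_surjective (f := (topEquiv (G := G)).toMonoidHom) topEquiv.surjective

/-- the core case. -/
theorem two_length_core {G : Type u} [Group G] [Finite G] (hsol : Group.IsSolvable G)
    (hO : pPrimeCore 2 G = ⊥) {e : ℕ}
    (hexp : ∀ x : G, (∃ k, x ^ (2 ^ k) = 1) → x ^ (2 ^ (e + 1)) = 1) : PLengthLE 2 (e + 1) G := by
  have h2f : Fact (Nat.Prime 2) := ⟨Nat.prime_two⟩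
  apply pLengthLE_succ_of_isPGroup (pCore 2 G) (Cfsg.Agent.Lib.H32Cores.pCore_isPGroup 2)
  apply main e
  · have := hsol
    infer_instance
  · exact Cores.pCore_quotient_pCore 2 G
  · obtain ⟨V, i1, i2, i3, ⟨D⟩⟩ := FratRep.exists_data (p := 2) (pCore 2 G) inferInstance
      (Cfsg.Agent.Lib.H32Cores.pCore_isPGroup 2)
    obtain ⟨σ, hσ, hσρ⟩ := D.exists_quot isPSolvable_of_isSolvable hO
    have hinj : Function.Injective (Module.End.baseChangeHom (ZMod 2) KK V) :=
      LinearMap.baseChangeHom_injective (ZMod 2) V KK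
    set B := Module.End.baseChangeHom (ZMod 2) KK V with hB
    have hfd : FiniteDimensional (ZMod 2) V := Module.Finite.of_finite
    refine ⟨TensorProduct (ZMod 2) KK V, inferInstance, inferInstance, inferInstance,
      B.toMonoidHom.comp σ, ?_, ?_⟩
    · intro x hx
      apply hσ
      rw [map_one]
      apply hinj
      rw [map_one]
      exact hx
    · rintro x ⟨k, hk⟩
      obtain ⟨y, hy, ha⟩ := HHExp.lift_pelement (pCore 2 G) x k hk
      have h1 := HHExp.nil_of_exponent hexp D y ha
      rw [← hσρ, hy] at h1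
      have h2 : (B.toMonoidHom.comp σ) x = B (σ x) := rfl
      rw [h2, ← map_one B, ← map_sub, ← map_pow, h1, map_zero]

theorem two_length {G : Type u} [Group G] [Finite G] (hsol : Group.IsSolvable G) (e : ℕ)
    (hexp : ∀ x : G, (∃ k, x ^ (2 ^ k) = 1) → x ^ (2 ^ e) = 1) : PLengthLE 2 e G := by
  have h2f : Fact (Nat.Prime 2) := ⟨Nat.prime_two⟩
  cases e with
  | zero =>
    rw [pLengthLE_zero_iff, Nat.coprime_comm, Nat.Prime.coprime_iff_not_dvd Nat.prime_two]
    intro hdvd
    obtain ⟨x, hx⟩ := exists_prime_orderOf_dvd_card' 2 hdvd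
    have h1 := hexp x ⟨1, by rw [pow_one, ← hx, pow_orderOf_eq_one]⟩
    rw [pow_zero, pow_one] at h1
    rw [h1, orderOf_one] at hx
    exact absurd hx (by norm_num)
  | succ e =>
    apply pLengthLE_of_coprime (pPrimeCore 2 G) (Cfsg.Agent.Lib.H32Cores.pPrimeCore_coprime 2)
    apply two_length_core
    · have := hsol
      infer_instance
    · exact Cfsg.Agent.Lib.Cores.pPrimeCore_quotient_pPrimeCore 2 G
    · exact HHExp.exp_quot _ hexp

/-- Bryukhanova: the `2`-length is at most the exponent. -/
theorem two_length_sylow {G : Type u} [Group G] [Finite G] (hsol : Group.IsSolvable G) (e : ℕ)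
    (hexp : ∀ (P : Sylow 2 G), ∀ x ∈ (P : Subgroup G), x ^ 2 ^ e = 1) : PLengthLE 2 e G :=
  two_length hsol e fun x hx => HHExp.pelement_of_sylow hexp x hx

end Cfsg.Agent.Lib.BryMain
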