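import Cfsg.Agent.Lib.CDeg9
import Cfsg.Agent.Lib.CharCentral

/-!
# Constant degree minus value: the centralizer of an involution (helper74)
-/

set_option autoImplicit false
set_option linter.all false

namespace Cfsg.Agent.Lib.CDeg

open scoped ComplexConjugate
open Cfsg Cfsg.Agent.Lib.CharBasic Cfsg.Agent.Lib.BlockRing Cfsg.Agent.Lib.BlockThird

universe u

attribute [local instance 5000] Fintype.ofFinite fact2

section sign

variable {C : Type u} [Group C] [Finite C] {M : Ideal AlgInt}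

/-- central involutions act by a sign -/
theorem central_sign (χ : IrrCharacter C) {t : C} (ht : t * t = 1) (hc : ∀ x, Commute x t) :
    (∀ x, (χ : C → ℂ) (x * t) = (χ : C → ℂ) x) ∨ (∀ x, (χ : C → ℂ) (x * t) = -(χ : C → ℂ) x) := by
  obtain ⟨χ, n, ρ, hρ, rfl⟩ := χ
  haveI := hρ
  obtain ⟨c, hc'⟩ := CharCentral.exists_scalar_of_commute ρ (ρ t) (by
    intro g v
    rw [← Module.End.mul_apply, ← Module.End.mul_apply, ← map_mul, ← map_mul, (hc g).eq])
  have hval : ∀ x, ρ.character (x * t) = c * ρ.character x := by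
    intro x
    show LinearMap.trace ℂ _ (ρ (x * t)) = c * LinearMap.trace ℂ _ (ρ x)
    rw [map_mul, hc']
    have : ρ x * (c • (LinearMap.id : (Fin n → ℂ) →ₗ[ℂ] (Fin n → ℂ))) = c • ρ x := by
      ext v; simp
    rw [this, map_smul, smul_eq_mul]
  have h0 : ρ.character 1 ≠ 0 := IsIrrCharacter.one_ne_zero (⟨n, ρ, hρ, rfl⟩ : IsIrrCharacter C ρ.character)
  have h2 : c * c = 1 := by
    have h3 := hval t
    have h4 := hval 1
    rw [ht] at h3
    rw [one_mul] at h4
    rw [h4] at h3
    apply mul_right_cancel₀ h0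
    linear_combination -h3
  rcases mul_self_eq_one_iff.mp h2 with h | h
  · left; intro x; show ρ.character (x * t) = _; rw [hval, h, one_mul]
  · right; intro x; show ρ.character (x * t) = _; rw [hval, h, neg_one_mul]

/-- an involution in a group with elementary abelian Sylow 2-subgroups is in every Sylow 2-subgroup if central -/
theorem central_mem {t : C} (ht : orderOf t = 2) (hc : ∀ x, Commute x t) (P : Sylow 2 C) : t ∈ P := by
  obtain ⟨g, hg⟩ := exists_conj_mem P ht
  rwa [(hc g).eq, mul_inv_cancel_right] at hg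

/-- a sign character that is nontrivial on a central involution -/
theorem exists_sign (hE : El C) {t : C} (ht : orderOf t = 2) (hc : ∀ x, Commute x t) :
    ∃ s : C →* ℤˣ, s t = -1 := by
  classical
  obtain ⟨P⟩ := (inferInstance : Nonempty (Sylow 2 C))
  have htP := central_mem ht hc P
  have hcP : ∀ a b : (P : Subgroup C), a * b = b * a := comm_sub hE P
  have ht1 : (⟨t, htP⟩ : (P : Subgroup C)) ≠ 1 := by
    intro h
    have h1 : t = 1 := congrArg Subtype.val h
    rw [h1, orderOf_one] at ht; norm_num at ht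
  have hlam : ∃ lam : IrrCharacter (P : Subgroup C), lam.1 ⟨t, htP⟩ ≠ 1 := by
    by_contra hh
    push Not at hh
    have h1 := sum_lam hcP ht1
    rw [Finset.sum_congr rfl (fun lam _ => hh lam), Finset.sum_const, Finset.card_univ, nsmul_eq_mul, mul_one] at h1
    have h3 : Fintype.card (IrrCharacter (P : Subgroup C)) = 0 := by exact_mod_cast h1
    exact (Fintype.card_pos_iff.mpr ⟨triv (P : Subgroup C)⟩).ne' h3
  obtain ⟨lam, hlam⟩ := hlam
  have hval : ∀ x : (P : Subgroup C), lam.1 x = 1 ∨ lam.1 x = -1 := by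
    intro x
    rw [← mul_self_eq_one_iff, ← lam_mul hcP]
    have : x * x = 1 := by
      by_cases hx : x = 1
      · rw [hx, one_mul]
      · have h2 := hE.order P.2 x.2 (fun h => hx (Subtype.ext h))
        apply Subtype.ext
        show (x : C) * x = 1
        have h3 := pow_orderOf_eq_one (x : C)
        rw [h2, pow_two] at h3
        exact h3
    rw [this, lam_one hcP]
  have hneg : ¬ ((-1 : ℂ) = 1) := by norm_num
  let φ : (P : Subgroup C) →* ℤˣ :=
    { toFun := fun x => if lam.1 x = 1 then 1 else -1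
      map_one' := by rw [if_pos (lam_one hcP lam)]
      map_mul' := by
        intro x y
        simp only [lam_mul hcP]
        rcases hval x with hx | hx <;> rcases hval y with hy | hy <;> rw [hx, hy]
        · rw [mul_one, if_pos rfl, one_mul]
        · rw [one_mul, if_neg hneg, if_pos rfl, one_mul]
        · rw [mul_one, if_neg hneg, if_pos rfl, mul_one]
        · rw [neg_mul_neg, mul_one, if_pos rfl, if_neg hneg, neg_mul_neg, mul_one] }
  refine ⟨MonoidHom.transfer φ, ?_⟩
  rw [MonoidHom.transfer_eq_pow φ t (by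
    intro k g _
    rw [((hc g⁻¹).pow_right k).eq, mul_assoc, inv_mul_cancel, mul_one])]
  have h1 : (⟨t ^ (P : Subgroup C).index, MonoidHom.transfer_eq_pow_aux t (by
      intro k g _
      rw [((hc g⁻¹).pow_right k).eq, mul_assoc, inv_mul_cancel, mul_one])⟩ : (P : Subgroup C)) = ⟨t, htP⟩ := by
    apply Subtype.ext
    show t ^ (P : Subgroup C).index = t
    obtain ⟨k, hk⟩ := Nat.odd_iff.mpr (Nat.two_dvd_ne_zero.mp P.not_dvd_index)
    rw [hk, pow_succ, pow_mul]
    have : t ^ 2 = 1 := by rw [← ht, pow_orderOf_eq_one]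
    rw [this, one_pow, one_mul]
  rw [h1]
  show (if lam.1 ⟨t, htP⟩ = 1 then (1 : ℤˣ) else -1) = -1
  rw [if_neg hlam]

theorem sign_val (s : C →* ℤˣ) (x : C) : (((s x : ℤˣ) : ℤ) : ℂ) = 1 ∨ (((s x : ℤˣ) : ℤ) : ℂ) = -1 := by
  rcases Int.units_eq_one_or (s x) with h | h
  · left; rw [h]; simp
  · right; rw [h]; simp

theorem sign_isCharacter (s : C →* ℤˣ) : IsCharacter C (fun x => (((s x : ℤˣ) : ℤ) : ℂ)) :=
  isCharacter_of_hom (((Int.castRingHom ℂ : ℤ →* ℂ).comp (Units.coeHom ℤ)).comp s)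

/-- the principal block is closed under multiplication by sign characters -/
theorem mul_sign_mem (hM : IsPModular 2 M) (s : C →* ℤˣ) {ψ : IrrCharacter C} (hψ : ψ ∈ B0 M C) :
    ∃ ψ' ∈ B0 M C, ∀ x, (ψ' : C → ℂ) x = (ψ : C → ℂ) x * (((s x : ℤˣ) : ℤ) : ℂ) := by
  have := isPrime hM
  have h1 : (fun x => (((s x : ℤˣ) : ℤ) : ℂ)) 1 = 1 := by simp
  refine ⟨⟨(ψ : C → ℂ) * (fun x => (((s x : ℤˣ) : ℤ) : ℂ)), ψ.2.mul_linear (sign_isCharacter s) h1⟩, ?_, fun x => rfl⟩
  rw [mem_B0] at hψ ⊢
  intro g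
  have h2 := hψ g
  have h3 : MemLocalRing M (centralChar (ψ : C → ℂ) g) := by
    rw [← loc_congr h2]
    unfold centralChar
    rw [mul_one, div_one]
    exact loc_natCast _
  have h4 : MemLocalIdeal M (1 - (((s g : ℤˣ) : ℤ) : ℂ)) := by
    rcases sign_val s g with h | h
    · rw [h, sub_self]; exact idl_zero
    · rw [h, sub_neg_eq_add]
      have : (1 : ℂ) + 1 = ((2 : ℕ) : ℂ) := by norm_num
      rw [this]
      exact idl_p hM
  have h5 : centralChar (fun _ : C => (1 : ℂ)) g -
      centralChar ((ψ : C → ℂ) * (fun x => (((s x : ℤˣ) : ℤ) : ℂ))) g =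
      (centralChar (fun _ : C => (1 : ℂ)) g - centralChar (ψ : C → ℂ) g) +
        centralChar (ψ : C → ℂ) g * (1 - (((s g : ℤˣ) : ℤ) : ℂ)) := by
    unfold centralChar
    simp only [Pi.mul_apply]
    have h1' : (((s 1 : ℤˣ) : ℤ) : ℂ) = 1 := h1
    rw [h1']
    ring
  exact h5 ▸ idl_add h2 (idl_mul_left h3 h4)

end sign

variable {G : Type u} [Group G] [Finite G] {M : Ideal AlgInt}

/-- the conclusion of the arithmetic part -/
def CT (M : Ideal AlgInt) (G : Type u) [Group G] [Finite G] (t : G) : Prop :=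
  ∀ χ ∈ B0 M G, χ ≠ triv G → ∀ P : Sylow 2 G, (χ : G → ℂ) 1 - (χ : G → ℂ) t = Nat.card P

theorem card_sylow_cent (hE : El G) {t : G} (ht : orderOf t = 2)
    (P' : Sylow 2 ↥(Subgroup.centralizer ({t} : Set G))) (P : Sylow 2 G) :
    Nat.card P' = Nat.card P := by
  obtain ⟨Q, htQ, hQ⟩ := hE.exists_sylow ht
  have h1 : Nat.card P' = Nat.card (Q.subtype hQ) := by
    rw [P'.card_eq_multiplicity, (Q.subtype hQ).card_eq_multiplicity]
  have h2 : Nat.card (Q.subtype hQ) = Nat.card Q := by
    show Nat.card ((Q : Subgroup G).subgroupOf _) = _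
    exact Nat.card_congr (Subgroup.subgroupOfEquivOfLe hQ).toEquiv
  rw [h1, h2, P.card_eq_multiplicity, Q.card_eq_multiplicity]

theorem inner_neg {C : Type u} [Group C] [Finite C] {β : IrrCharacter C} {t : C}
    (hneg : ∀ x, (β : C → ℂ) (x * t) = -(β : C → ℂ) x) (Q : Subgroup C) (htQ : t ∈ Q) :
    classInner (fun x : Q => (β : C → ℂ) x) ((triv Q : IrrCharacter Q) : Q → ℂ) = 0 := by
  rw [classInner_def]
  have h1 : ∑ x : Q, (β : C → ℂ) (x : C) * conj (((triv Q : IrrCharacter Q) : Q → ℂ) x) =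
      -∑ x : Q, (β : C → ℂ) (x : C) * conj (((triv Q : IrrCharacter Q) : Q → ℂ) x) := by
    rw [← Finset.sum_neg_distrib]
    refine Fintype.sum_equiv (Equiv.mulRight (⟨t, htQ⟩ : Q)) _ _ ?_
    intro x
    show _ = -((β : C → ℂ) ((x : C) * t) * conj (1 : ℂ))
    rw [hneg, neg_mul, neg_neg]
    rfl
  have h2 : ∑ x : Q, (β : C → ℂ) (x : C) * conj (((triv Q : IrrCharacter Q) : Q → ℂ) x) = 0 := by
    linear_combination (1 / 2 : ℂ) * h1
  rw [h2, mul_zero]

theorem inner_res {t : G} (ht : ∀ y : G, orderOf y = 2 → IsConj y t) (hE : El G) {H : Subgroup G} {Q : Subgroup H}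
    (hQ : IsPGroup 2 Q) {χ : IrrCharacter G} (hχ : (χ : G → ℂ) 1 - (χ : G → ℂ) t = Nat.card Q)
    {lam : IrrCharacter Q} (hlam : lam ≠ triv Q) :
    classInner (fun x : Q => (χ : G → ℂ) ((x : H) : G)) (lam : Q → ℂ) = 1 := by
  have hcQ : ∀ a b : Q, a * b = b * a := fun a b => Subtype.ext ((hE.sub H).comm hQ a.2 b.2)
  have h2 := inner_const hcQ (fun x : Q => (χ : G → ℂ) ((x : H) : G)) ((χ : G → ℂ) t) (by
    intro x hx
    have hx2 : orderOf (((x : H) : G)) = 2 := by
      rw [Subgroup.orderOf_coe]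
      exact (hE.sub _).order hQ x.2 (fun h => hx (Subtype.ext h))
    obtain ⟨g, hg⟩ := isConj_iff.mp (ht _ hx2)
    have h3 := χ.2.isCharacter.isClassFunction ((x : H) : G) g
    rw [hg] at h3
    exact h3.symm) lam
  rw [sum_conj_lam hlam, mul_zero, add_zero] at h2
  have h3 : (Nat.card Q : ℂ) ≠ 0 := by exact_mod_cast Nat.card_pos.ne'
  have h4 : (fun x : Q => (χ : G → ℂ) ((x : H) : G)) 1 - (χ : G → ℂ) t = Nat.card Q := hχ
  rw [h4] at h2
  apply mul_left_cancel₀ h3
  rw [h2, mul_one]

theorem CT.mf (hM : IsPModular 2 M) (hE : El G) {t : G} (ht2 : orderOf t = 2)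
    (ht : ∀ y : G, orderOf y = 2 → IsConj y t) (h : CT M G t) : MF M ↥(Subgroup.centralizer ({t} : Set G)) := by
  classical
  have htC : t ∈ Subgroup.centralizer ({t} : Set G) := by rw [Subgroup.mem_centralizer_singleton_iff]
  have ht' : orderOf (⟨t, htC⟩ : ↥(Subgroup.centralizer ({t} : Set G))) = 2 := by rw [Subgroup.orderOf_mk]; exact ht2
  have hcc : ∀ x : ↥(Subgroup.centralizer ({t} : Set G)), Commute x ⟨t, htC⟩ := by
    intro x
    have := x.2
    rw [Subgroup.mem_centralizer_singleton_iff] at this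
    exact Subtype.ext this
  have htt : (⟨t, htC⟩ : ↥(Subgroup.centralizer ({t} : Set G))) * ⟨t, htC⟩ = 1 := by
    rw [← pow_two, ← ht', pow_orderOf_eq_one]
  obtain ⟨P⟩ := (inferInstance : Nonempty (Sylow 2 G))
  -- the first case
  have key : ∀ β ∈ B0 M ↥(Subgroup.centralizer ({t} : Set G)),
      (∀ x, (β : ↥(Subgroup.centralizer ({t} : Set G)) → ℂ) (x * ⟨t, htC⟩) =
        -(β : ↥(Subgroup.centralizer ({t} : Set G)) → ℂ) x) →
      ∀ (P' : Sylow 2 ↥(Subgroup.centralizer ({t} : Set G)))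
        (lam : IrrCharacter (P' : Subgroup ↥(Subgroup.centralizer ({t} : Set G)))),
      (classInner (fun x : (P' : Subgroup ↥(Subgroup.centralizer ({t} : Set G))) =>
        (β : ↥(Subgroup.centralizer ({t} : Set G)) → ℂ) x) lam.1).re ≤ 1 := by
    intro β hβ hneg P' lam
    by_cases hlam : lam = triv _
    · have hz := inner_neg hneg (P' : Subgroup ↥(Subgroup.centralizer ({t} : Set G))) (central_mem ht' hcc P')
      rw [hlam]
      have : classInner (fun x : (P' : Subgroup ↥(Subgroup.centralizer ({t} : Set G))) =>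
        (β : ↥(Subgroup.centralizer ({t} : Set G)) → ℂ) x)
        (triv (P' : Subgroup ↥(Subgroup.centralizer ({t} : Set G)))).1 = 0 := hz
      rw [this]; norm_num
    · obtain ⟨χ, hχ, hover⟩ := exists_over hM (y := t) (k := 1) (by rw [ht2]; rfl) hβ
      have hχ1 : χ ≠ triv G := by
        intro h1
        rw [h1] at hover
        have h2 := irr_orthonormal (triv ↥(Subgroup.centralizer ({t} : Set G))) β
        have h3 : β ≠ triv ↥(Subgroup.centralizer ({t} : Set G)) := by
          intro h4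
          have h5 := hneg 1
          rw [h4] at h5
          have h6 : (1 : ℂ) = -1 := h5
          norm_num at h6
        rw [if_neg (Ne.symm h3)] at h2
        exact hover h2
      have h1 := mono (P' : Subgroup ↥(Subgroup.centralizer ({t} : Set G))).subtype
        (χ.2.isCharacter.comp (Subgroup.centralizer ({t} : Set G)).subtype) (ψ := β) hover lam
      refine h1.trans ?_
      have h5 := inner_res ht hE P'.2 (χ := χ) (by
        rw [h χ hχ hχ1 P, ← card_sylow_cent hE ht2 P' P]) (lam := lam) hlam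
      have h6 : (classInner (fun x : (P' : Subgroup ↥(Subgroup.centralizer ({t} : Set G))) =>
        (χ : G → ℂ) ((x : ↥(Subgroup.centralizer ({t} : Set G))) : G)) lam.1).re ≤ 1 := by
        have h7 : classInner (fun x : (P' : Subgroup ↥(Subgroup.centralizer ({t} : Set G))) =>
          (χ : G → ℂ) ((x : ↥(Subgroup.centralizer ({t} : Set G))) : G)) lam.1 = 1 := h5
        rw [h7, Complex.one_re]
      exact h6
  intro P' β hβ lam
  rcases central_sign β htt hcc with hpos | hneg
  · obtain ⟨s, hs⟩ := exists_sign (hE.sub _) ht' hcc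
    obtain ⟨β', hβ', hval⟩ := mul_sign_mem hM s hβ
    have hneg' : ∀ x, (β' : ↥(Subgroup.centralizer ({t} : Set G)) → ℂ) (x * ⟨t, htC⟩) =
        -(β' : ↥(Subgroup.centralizer ({t} : Set G)) → ℂ) x := by
      intro x
      rw [hval, hval, hpos, map_mul, hs]
      push_cast
      ring
    have hs1 : (fun x : (P' : Subgroup ↥(Subgroup.centralizer ({t} : Set G))) =>
      (((s (x : ↥(Subgroup.centralizer ({t} : Set G))) : ℤˣ) : ℤ) : ℂ)) 1 = 1 := by simp
    have hk := key β' hβ' hneg' P' ⟨lam.1 * (fun x : (P' : Subgroup ↥(Subgroup.centralizer ({t} : Set G))) =>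
        (((s (x : ↥(Subgroup.centralizer ({t} : Set G))) : ℤˣ) : ℤ) : ℂ)),
      lam.2.mul_linear ((sign_isCharacter s).comp (P' : Subgroup ↥(Subgroup.centralizer ({t} : Set G))).subtype) hs1⟩
    refine le_of_eq_of_le ?_ hk
    congr 1
    rw [classInner_def, classInner_def]
    congr 1
    refine Finset.sum_congr rfl fun x _ => ?_
    show _ = (β' : ↥(Subgroup.centralizer ({t} : Set G)) → ℂ) (x : ↥(Subgroup.centralizer ({t} : Set G))) *
      conj (lam.1 x * (((s (x : ↥(Subgroup.centralizer ({t} : Set G))) : ℤˣ) : ℤ) : ℂ))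
    rw [hval, map_mul]
    rcases sign_val s (x : ↥(Subgroup.centralizer ({t} : Set G))) with h1 | h1
    · rw [h1, map_one]; ring
    · rw [h1, map_neg, map_one]; ring
  · exact key β hβ hneg P' lam

end Cfsg.Agent.Lib.CDeg
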