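import Cfsg.Agent.Lib.CDeg10
import Cfsg.Agent.Lib.ElemCent3

/-!
# Constant degree minus value: the conclusion (helper74)
-/

set_option autoImplicit false
set_option linter.all false

namespace Cfsg.Agent.Lib.CDeg

open scoped ComplexConjugate
open Cfsg Cfsg.Agent.Lib.CharBasic Cfsg.Agent.Lib.BlockRing Cfsg.Agent.Lib.BlockThird

universe u

attribute [local instance 5000] Fintype.ofFinite fact2

variable {G : Type u} [Group G] [Finite G] {M : Ideal AlgInt}

theorem sum_inflate (hM : IsPModular 2 M) (f : (G → ℂ) → ℂ) :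
    ∑ χ ∈ B0 M G, f (χ : G → ℂ) =
      ∑ ψ ∈ B0 M (G ⧸ oddCore G), f (fun g => (ψ : G ⧸ oddCore G → ℂ) (g : G ⧸ oddCore G)) := by
  classical
  symm
  refine Finset.sum_bij (fun ψ _ => (⟨fun x : G => (ψ : G ⧸ oddCore G → ℂ) (x : G ⧸ oddCore G), ψ.2.inflate _⟩ :
    IrrCharacter G)) ?_ ?_ ?_ ?_
  · intro ψ hψ
    rw [mem_B0] at hψ ⊢
    exact (BlockInfl.inflate_mem_principal_iff hM (oddCore G) odd_card_oddCore).mpr hψ
  · intro ψ _ ψ' _ h
    apply Subtype.ext
    funext x
    obtain ⟨g, rfl⟩ := QuotientGroup.mk_surjective x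
    exact congrFun (congrArg Subtype.val h) g
  · intro χ hχ
    rw [mem_B0] at hχ
    obtain ⟨ψ, hψ, h⟩ := BlockInfl.exists_deflate hM (oddCore G) odd_card_oddCore hχ
    exact ⟨ψ, mem_B0.mpr hψ, Subtype.ext (funext fun g => (h g).symm)⟩
  · intro ψ _; rfl

/-- the regular character of a group with normal Sylow 2-subgroup modulo the odd core -/
theorem sum_reg_zero (hM : IsPModular 2 M) (hE : El G) (h : NS G) {v : G} (hv : v ∉ oddCore G) :
    ∑ χ ∈ B0 M G, (χ : G → ℂ) v * conj ((χ : G → ℂ) 1) = 0 := by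
  classical
  rw [sum_inflate hM (fun f => f v * conj (f 1))]
  have h2 : B0 M (G ⧸ oddCore G) = Finset.univ := by
    rw [Finset.eq_univ_iff_forall]
    intro ψ
    rw [mem_B0]
    obtain ⟨P⟩ := (inferInstance : Nonempty (Sylow 2 (G ⧸ oddCore G)))
    haveI := h P
    refine BlockInfl.mem_principal_of_centralizer_le hM P.2 ?_ ψ
    exact cent_le oddCore_quot P (fun a ha b hb => (hE.quot _).comm P.2 ha hb)
  rw [h2]
  have h3 := column_orthogonality ((v : G) : G ⧸ oddCore G) 1
  rw [if_neg] at h3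
  · exact h3
  · intro h4
    obtain ⟨x, hx⟩ := isConj_iff.mp h4.symm
    rw [mul_one, mul_inv_cancel] at hx
    exact hv ((QuotientGroup.eq_one_iff v).mp hx.symm)

theorem two_dvd_mul {t v : G} (ht : orderOf t = 2) (hv : ¬ 2 ∣ orderOf v) (hc : Commute t v) : 2 ∣ orderOf (t * v) := by
  rw [hc.orderOf_mul_eq_mul_orderOf_of_coprime (by rw [ht]; exact (Nat.Prime.coprime_iff_not_dvd Nat.prime_two).mpr hv), ht]
  exact Dvd.intro _ rfl

/-- the odd elements of the centralizer of an involution are in its odd core -/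
theorem CT.odd_mem (hM : IsPModular 2 M) (hE : El G) {t : G} (ht2 : orderOf t = 2)
    (ht : ∀ y : G, orderOf y = 2 → IsConj y t) (h : CT M G t) {v : ↥(Subgroup.centralizer ({t} : Set G))}
    (hv : ¬ 2 ∣ orderOf v) : v ∈ oddCore ↥(Subgroup.centralizer ({t} : Set G)) := by
  classical
  by_contra hvO
  have hNS : NS ↥(Subgroup.centralizer ({t} : Set G)) := claim hM _ _ le_rfl (hE.sub _) (h.mf hM hE ht2 ht)
  have h1 := sum_reg_zero hM (hE.sub _) hNS hvO
  have h2 := BlockSection.principal_section_sum hM (u := t) (k := 1) (by rw [ht2]; rfl)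
    (H := Subgroup.centralizer ({t} : Set G)) (fun g => by
      rw [Subgroup.mem_centralizer_singleton_iff]; exact ⟨fun h => (show Commute g t from h).symm, fun h => (show Commute t g from h).symm⟩)
    (y := v) (y' := 1) hv (by rw [orderOf_one]; norm_num)
  rw [sum_B0, sum_B0, h1] at h2
  have hcv : Commute t (v : G) := by
    have := v.2
    rw [Subgroup.mem_centralizer_singleton_iff] at this
    exact (show Commute (v : G) t from this).symm
  have hsing : 2 ∣ orderOf (t * (v : G)) := two_dvd_mul ht2 (by rwa [Subgroup.orderOf_coe]) hcv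
  have htinv : t⁻¹ = t := by
    apply inv_eq_of_mul_eq_one_left
    rw [← pow_two, ← ht2, pow_orderOf_eq_one]
  have h3 : ∑ χ ∈ B0 M G, (χ : G → ℂ) (t * v) * (χ : G → ℂ) t = 0 := by
    rw [← h2]
    refine Finset.sum_congr rfl fun χ _ => ?_
    have h5 : t * ((1 : ↥(Subgroup.centralizer ({t} : Set G))) : G) = t := mul_one t
    rw [h5, ← χ.2.isCharacter.inv t, htinv]
  have h4 := worth hM hsing (x := 1) (by rw [orderOf_one]; norm_num)
  obtain ⟨P⟩ := (inferInstance : Nonempty (Sylow 2 G))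
  have h5 : ∑ χ ∈ B0 M G, ((χ : G → ℂ) (t * v) * (χ : G → ℂ) 1 - (χ : G → ℂ) (t * v) * (χ : G → ℂ) t) = 0 := by
    rw [Finset.sum_sub_distrib, h3, h4, sub_zero]
  rw [sum_split hM] at h5
  have h6 : ((triv G : IrrCharacter G) : G → ℂ) (t * v) * ((triv G : IrrCharacter G) : G → ℂ) 1 -
    ((triv G : IrrCharacter G) : G → ℂ) (t * v) * ((triv G : IrrCharacter G) : G → ℂ) t = 0 := sub_self _
  rw [h6, zero_add] at h5
  have h7 : ∑ χ ∈ (B0 M G).erase (triv G), ((χ : G → ℂ) (t * v) * (χ : G → ℂ) 1 - (χ : G → ℂ) (t * v) * (χ : G → ℂ) t) =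
      (Nat.card P : ℂ) * ∑ χ ∈ (B0 M G).erase (triv G), (χ : G → ℂ) (t * v) := by
    rw [Finset.mul_sum]
    refine Finset.sum_congr rfl fun χ hχ => ?_
    rw [Finset.mem_erase] at hχ
    linear_combination (χ : G → ℂ) (t * v) * h χ hχ.2 hχ.1 P
  rw [h7] at h5
  have h8 : (Nat.card P : ℂ) ≠ 0 := by exact_mod_cast Nat.card_pos.ne'
  exact theta_ne hM hsing ((mul_eq_zero.mp h5).resolve_left h8)

/-- conjugate involutions satisfy the same hypotheses -/
theorem CT.conj {t : G} (ht : ∀ y : G, orderOf y = 2 → IsConj y t) (h : CT M G t) {x : G} (hx : orderOf x = 2) :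
    CT M G x := by
  intro χ hχ h1 P
  rw [← h χ hχ h1 P]
  obtain ⟨g, hg⟩ := isConj_iff.mp (ht x hx)
  have h3 := χ.2.isCharacter.isClassFunction x g
  rw [hg] at h3
  rw [h3]

theorem conj_trans {t : G} (ht : ∀ y : G, orderOf y = 2 → IsConj y t) {x : G} (hx : orderOf x = 2) :
    ∀ y : G, orderOf y = 2 → IsConj y x := fun y hy => (ht y hy).trans (ht x hx).symm

/-- a character with value `-1` -/
theorem CT.exists_neg (hM : IsPModular 2 M) (hE : El G) {t : G} (ht2 : orderOf t = 2)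
    (ht : ∀ y : G, orderOf y = 2 → IsConj y t) (h : CT M G t) (P : Sylow 2 G) :
    ∃ χ ∈ B0 M G, (χ : G → ℂ) t ≠ (χ : G → ℂ) 1 ∧
      classInner (fun x : (P : Subgroup G) => (χ : G → ℂ) x) (triv (P : Subgroup G)).1 = 0 := by
  classical
  have h3 : (Nat.card P : ℂ) ≠ 0 := by exact_mod_cast Nat.card_pos.ne'
  by_contra hh
  push Not at hh
  have h1 := worth hM (g := t) (x := 1) (by rw [ht2]) (by rw [orderOf_one]; norm_num)
  rw [sum_split hM] at h1
  have h2 : ((triv G : IrrCharacter G) : G → ℂ) t * ((triv G : IrrCharacter G) : G → ℂ) 1 = 1 := mul_one _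
  rw [h2] at h1
  have h4 : ∀ χ ∈ (B0 M G).erase (triv G), ∃ m : ℕ, (χ : G → ℂ) t * (χ : G → ℂ) 1 = m := by
    intro χ hχ
    rw [Finset.mem_erase] at hχ
    have h5 := h χ hχ.2 hχ.1 P
    have hne : (χ : G → ℂ) t ≠ (χ : G → ℂ) 1 := by
      intro h6
      rw [h6, sub_self] at h5
      exact h3 h5.symm
    have h6 := hh χ hχ.2 hne
    obtain ⟨n, hn⟩ := (χ.2.isCharacter.comp (P : Subgroup G).subtype).classInner_nat (triv (P : Subgroup G)).2.isCharacter
    have hn' : classInner (fun x : (P : Subgroup G) => (χ : G → ℂ) x) (triv (P : Subgroup G)).1 = n := hn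
    rw [hn'] at h6
    have h7 : (Nat.card P : ℂ) * classInner (fun x : (P : Subgroup G) => (χ : G → ℂ) x) (triv (P : Subgroup G)).1 =
      (χ : G → ℂ) 1 - (χ : G → ℂ) t + (χ : G → ℂ) t * Nat.card P := inner_P_triv ht hE P.2 χ
    rw [hn', h5] at h7
    have hn0 : n ≠ 0 := by intro h9; rw [h9] at h6; exact h6 Nat.cast_zero
    obtain ⟨k, rfl⟩ : ∃ k, n = k + 1 := ⟨n - 1, by omega⟩
    have h9 : (χ : G → ℂ) t = k := by
      apply mul_right_cancel₀ h3
      push_cast at h7
      linear_combination -h7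
    obtain ⟨d, -, hd⟩ := deg_pos χ
    exact ⟨k * d, by rw [h9, hd]; push_cast; ring⟩
  choose! m hm using h4
  rw [Finset.sum_congr rfl hm, ← Nat.cast_sum] at h1
  have h5 : 1 + ∑ χ ∈ (B0 M G).erase (triv G), m χ = 0 := by exact_mod_cast h1
  omega

/-- the centralizer has trivial odd core -/
theorem CT.oddCore_cent (hM : IsPModular 2 M) (hE : El G) (h0 : oddCore G = ⊥) {t : G} (ht2 : orderOf t = 2)
    (ht : ∀ y : G, orderOf y = 2 → IsConj y t) (h : CT M G t) :
    oddCore ↥(Subgroup.centralizer ({t} : Set G)) = ⊥ := by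
  classical
  obtain ⟨P, htP, hPC⟩ := hE.exists_sylow ht2
  obtain ⟨χ, hχ, hne, hinner⟩ := h.exists_neg hM hE ht2 ht P
  have hRn : ∀ x ∈ (P : Subgroup G), ∀ r ∈ (oddCore ↥(Subgroup.centralizer ({t} : Set G))).map
      (Subgroup.centralizer ({t} : Set G)).subtype, x * r * x⁻¹ ∈
      (oddCore ↥(Subgroup.centralizer ({t} : Set G))).map (Subgroup.centralizer ({t} : Set G)).subtype := by
    rintro x hx _ ⟨v, hv, rfl⟩
    have h1 := (inferInstance : (oddCore ↥(Subgroup.centralizer ({t} : Set G))).Normal).conj_mem v hv ⟨x, hPC hx⟩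
    exact ⟨_, h1, rfl⟩
  have hRodd : ∀ r ∈ (oddCore ↥(Subgroup.centralizer ({t} : Set G))).map
      (Subgroup.centralizer ({t} : Set G)).subtype, ¬ 2 ∣ orderOf r := by
    rintro _ ⟨v, hv, rfl⟩
    have := odd_of_mem_oddCore hv
    rwa [Subgroup.coe_subtype, Subgroup.orderOf_coe]
  have hker := core_le_ker hM (P := (P : Subgroup G)) (fun x hx hx1 => hE.order P.2 hx hx1) hRodd hRn (by
    intro x hx hx1 c hc hxc
    have hx2 := hE.order P.2 hx hx1
    have hcC : c ∈ Subgroup.centralizer ({x} : Set G) := by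
      rw [Subgroup.mem_centralizer_singleton_iff]; exact hxc.symm
    refine ⟨⟨c, hcC⟩, ?_, rfl⟩
    refine (h.conj ht hx2).odd_mem hM hE hx2 (conj_trans ht hx2) ?_
    rw [Subgroup.orderOf_mk]
    exact hRodd c hc) hχ (lam := fun _ => 1) (fun _ _ => (mul_one _).symm) (fun _ => mul_one _) (by
      have h1 := sum_of_classInner (lam := triv (P : Subgroup G)) hinner
      exact h1)
  have hK : kerSet (G := G) {χ} = ⊥ := by
    refine eq_bot_of_odd (kerSet_normal _) h0 fun k hk h2 => ?_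
    obtain ⟨j, hj⟩ := exists_involution h2
    have h3 := Subgroup.pow_mem _ hk j
    rw [mem_kerSet] at h3
    have h4 := h3 χ (Finset.mem_singleton_self χ)
    obtain ⟨g, hg⟩ := isConj_iff.mp (ht _ hj)
    have h5 := χ.2.isCharacter.isClassFunction (k ^ j) g
    rw [hg, h4] at h5
    exact hne h5
  have hR : (oddCore ↥(Subgroup.centralizer ({t} : Set G))).map (Subgroup.centralizer ({t} : Set G)).subtype = ⊥ := by
    rw [eq_bot_iff, ← hK]
    intro r hr
    rw [mem_kerSet]
    intro β hβ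
    rw [Finset.mem_singleton.mp hβ]
    exact hker r hr
  exact (Subgroup.map_eq_bot_iff_of_injective _ (Subgroup.subtype_injective _)).mp hR

/-- the centralizer of an involution is elementary abelian -/
theorem CT.sq_one (hM : IsPModular 2 M) (hE : El G) (h0 : oddCore G = ⊥) {t : G} (ht2 : orderOf t = 2)
    (ht : ∀ y : G, orderOf y = 2 → IsConj y t) (h : CT M G t) {v : G} (hv : Commute v t) (hodd : ¬ 2 ∣ orderOf v) :
    v = 1 := by
  have hvC : v ∈ Subgroup.centralizer ({t} : Set G) := by rw [Subgroup.mem_centralizer_singleton_iff]; exact hv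
  have h1 := h.odd_mem hM hE ht2 ht (v := ⟨v, hvC⟩) (by rw [Subgroup.orderOf_mk]; exact hodd)
  rw [h.oddCore_cent hM hE h0 ht2 ht, Subgroup.mem_bot] at h1
  exact congrArg Subtype.val h1

theorem CT.isPGroup (hM : IsPModular 2 M) (hE : El G) (h0 : oddCore G = ⊥) {t : G} (ht2 : orderOf t = 2)
    (ht : ∀ y : G, orderOf y = 2 → IsConj y t) (h : CT M G t) :
    IsPGroup 2 (Subgroup.centralizer ({t} : Set G)) := by
  intro x
  obtain ⟨y, v, hyv, hc, ⟨k, hk⟩, hv, ⟨n, hn⟩, ⟨m, hm⟩⟩ := BlockSecond.exists_ppart (G := ↥(Subgroup.centralizer ({t} : Set G))) hM.1 x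
  have hv1 : (v : G) = 1 := by
    refine h.sq_one hM hE h0 ht2 ht ?_ (by rwa [Subgroup.orderOf_coe])
    have := v.2
    rw [Subgroup.mem_centralizer_singleton_iff] at this
    exact this
  have hv1' : v = 1 := Subtype.ext hv1
  refine ⟨k, ?_⟩
  rw [← hyv, hv1', mul_one, ← hk, pow_orderOf_eq_one]

end Cfsg.Agent.Lib.CDeg
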