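import Cfsg.Agent.Lib.CDeg11

/-!
# Constant degree minus value: the forward direction (helper74)
-/

set_option autoImplicit false
set_option linter.all false

namespace Cfsg.Agent.Lib.CDeg

open scoped ComplexConjugate
open Cfsg Cfsg.Agent.Lib.CharBasic Cfsg.Agent.Lib.BlockRing Cfsg.Agent.Lib.BlockThird

universe u

attribute [local instance 5000] Fintype.ofFinite fact2

variable {G : Type u} [Group G] [Finite G] {M : Ideal AlgInt}

theorem card_eq_one_of_triv (h : ∀ ψ : IrrCharacter G, ψ = triv G) : Nat.card G = 1 := by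
  have h1 := sum_degree_sq (G := G)
  have h2 : (Finset.univ : Finset (IrrCharacter G)) = {triv G} := by
    ext ψ; simp [h ψ]
  rw [h2, Finset.sum_singleton] at h1
  have h3 : ((triv G : IrrCharacter G) : G → ℂ) 1 ^ 2 = 1 := by
    show (1 : ℂ) ^ 2 = 1
    norm_num
  rw [h3] at h1
  exact_mod_cast h1.symm

theorem forward (hM : IsPModular 2 M) (h0 : oddCore G = ⊥) {u : G} (hu : u ≠ 1) {c : ℂ} (h : CD M G u c) :
    Nat.card G = 2 ∨ (∃ (F : Type) (_ : Field F) (_ : Fintype F) (n : ℕ), 2 ≤ n ∧ Fintype.card F = 2 ^ n ∧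
      Nonempty (G ≃* Matrix.ProjectiveSpecialLinearGroup (Fin 2) F) ∧ u ^ 2 = 1) := by
  classical
  obtain ⟨t, v, htv, hcomm, ht2, hv, ht, hE⟩ := h.exists_t hM h0 hu
  have hc := h.ne_zero hM h0 hu
  have hu2 : 2 ∣ orderOf u := by rw [← htv]; exact two_dvd_mul ht2 hv hcomm
  have hCT : CT M G t := fun χ hχ h1 P => h.eq_card hM hc hu2 ht2 ht hE P hχ h1
  have hv1 := hCT.sq_one hM hE h0 ht2 ht hcomm.symm hv
  have hut : u = t := by rw [← htv, hv1, mul_one]
  have husq : u ^ 2 = 1 := by rw [hut, ← ht2, pow_orderOf_eq_one]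
  obtain ⟨P, htP, hPC⟩ := hE.exists_sylow ht2
  have hCP : Subgroup.centralizer ({t} : Set G) = P :=
    P.is_maximal' (hCT.isPGroup hM hE h0 ht2 ht) hPC
  have ht1 : t ≠ 1 := by intro h1; rw [h1, orderOf_one] at ht2; norm_num at ht2
  have hcentP : Subgroup.centralizer ((P : Subgroup G) : Set G) ≤ P := by
    intro x hx
    rw [← hCP, Subgroup.mem_centralizer_singleton_iff]
    exact (Subgroup.mem_centralizer_iff.mp hx t htP).symm
  by_cases hcyc : IsCyclic (P : Subgroup G)
  · left
    -- the Sylow subgroup has order two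
    obtain ⟨⟨g, hgP⟩, hg⟩ := hcyc.exists_generator
    have hg1 : g ≠ 1 := by
      rintro rfl
      obtain ⟨k, hk⟩ := hg ⟨t, htP⟩
      apply ht1
      have h1 := congrArg Subtype.val hk
      have h2 : (1 : G) ^ k = t := h1
      rw [← h2, one_zpow]
    have hg2 := hE.order P.2 hgP hg1
    have hcard : Nat.card P = 2 := by
      have h1 := orderOf_eq_card_of_forall_mem_zpowers hg
      rw [Subgroup.orderOf_mk, hg2] at h1
      exact h1.symm
    have huniq : ∀ x ∈ P, x ≠ 1 → x = t := by
      intro x hx hx1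
      by_contra hne
      have h1 : ({(1 : G), x, t} : Finset G).card = 3 := by
        rw [Finset.card_insert_of_notMem, Finset.card_insert_of_notMem, Finset.card_singleton]
        · rw [Finset.mem_singleton]; exact hne
        · rw [Finset.mem_insert, Finset.mem_singleton]
          rintro (h | h)
          · exact hx1 h.symm
          · exact ht1 h.symm
      have h2 : Set.ncard (({(1 : G), x, t} : Finset G) : Set G) ≤ Set.ncard ((P : Subgroup G) : Set G) := by
        apply Set.ncard_le_ncard _ (Set.toFinite _)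
        intro y hy
        rw [Finset.mem_coe, Finset.mem_insert, Finset.mem_insert, Finset.mem_singleton] at hy
        rcases hy with rfl | rfl | rfl
        · exact P.one_mem
        · exact hx
        · exact htP
      rw [Set.ncard_coe_finset, h1] at h2
      have h3 : Set.ncard ((P : Subgroup G) : Set G) = 2 := hcard
      omega
    have hb := burn h0 P (by
      intro n hn
      have h1 := (Subgroup.mem_normalizer_iff.mp hn t).mp htP
      have h2 : n * t * n⁻¹ ≠ 1 := by
        intro h3
        rw [mul_inv_eq_one, mul_eq_left] at h3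
        exact ht1 h3
      have h3 := huniq _ h1 h2
      have h4 : n ∈ Subgroup.centralizer ({t} : Set G) := by
        rw [Subgroup.mem_centralizer_singleton_iff]
        exact mul_inv_eq_iff_eq_mul.mp h3
      rw [hCP] at h4
      rw [Subgroup.mem_centralizer_iff]
      intro z hz
      exact hE.comm P.2 hz h4)
    rw [← hcard, hb]
    exact (Nat.card_congr (Equiv.Set.univ G)).symm
  · right
    by_cases hn : (P : Subgroup G).Normal
    · exfalso
      haveI := hn
      have h1 : ∀ ψ : IrrCharacter (G ⧸ (P : Subgroup G)), ψ = triv _ := by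
        intro ψ
        by_contra hψ
        have h2 : (⟨fun x : G => (ψ : G ⧸ (P : Subgroup G) → ℂ) (x : G ⧸ (P : Subgroup G)), ψ.2.inflate _⟩ : IrrCharacter G) ∈ B0 M G := by
          refine mem_B0_of_ker hM P (K := (P : Subgroup G)) le_rfl hcentP ?_
          intro g hg
          show (ψ : G ⧸ (P : Subgroup G) → ℂ) (g : G ⧸ (P : Subgroup G)) =
            (ψ : G ⧸ (P : Subgroup G) → ℂ) ((1 : G) : G ⧸ (P : Subgroup G))
          rw [(QuotientGroup.eq_one_iff g).mpr hg, QuotientGroup.mk_one]
        have h3 := hCT _ h2 (by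
          intro h4
          apply hψ
          apply Subtype.ext
          funext x
          obtain ⟨g, rfl⟩ := QuotientGroup.mk_surjective x
          exact congrFun (congrArg Subtype.val h4) g) P
        have h4 : (ψ : G ⧸ (P : Subgroup G) → ℂ) ((1 : G) : G ⧸ (P : Subgroup G)) -
          (ψ : G ⧸ (P : Subgroup G) → ℂ) ((t : G) : G ⧸ (P : Subgroup G)) = Nat.card P := h3
        rw [(QuotientGroup.eq_one_iff t).mpr htP, QuotientGroup.mk_one, sub_self] at h4
        have h5 : (Nat.card P : ℂ) ≠ 0 := by exact_mod_cast Nat.card_pos.ne'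
        exact h5 h4.symm
      have h2 := card_eq_one_of_triv h1
      have h3 : (P : Subgroup G) = ⊤ := Subgroup.index_eq_one.mp h2
      apply hcyc
      refine ⟨⟨(⟨t, htP⟩ : (P : Subgroup G)), ?_⟩⟩
      intro x
      by_cases hx1 : x = 1
      · rw [hx1]; exact Subgroup.one_mem (Subgroup.zpowers (⟨t, htP⟩ : (P : Subgroup G)))
      · have hx2 := hE.order P.2 x.2 (fun h => hx1 (Subtype.ext h))
        obtain ⟨g, hg⟩ := isConj_iff.mp (ht _ hx2)
        have hgP : g ∈ (P : Subgroup G) := by rw [h3]; trivial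
        rw [hE.comm P.2 hgP x.2, mul_inv_cancel_right] at hg
        have h7 : x = ⟨t, htP⟩ := Subtype.ext hg
        rw [h7]
        exact Subgroup.mem_zpowers (⟨t, htP⟩ : (P : Subgroup G))
    · obtain ⟨F, hF, hFf, hcard, hiso⟩ := ElemCent.psl_two P hcyc hn (by
        intro x hx
        have h1 := (hCT.conj ht hx).isPGroup hM hE h0 hx (conj_trans ht hx)
        refine ⟨⟨⟨fun a b => Subtype.ext (hE.comm h1 a.2 b.2)⟩⟩, ?_⟩
        intro y hy
        by_cases hy1 : y = 1
        · rw [hy1, one_pow]
        · rw [← hE.order h1 hy hy1, pow_orderOf_eq_one])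
      obtain ⟨n, hn'⟩ : ∃ n, Nat.card (P : Subgroup G) = 2 ^ n := IsPGroup.iff_card.mp P.2
      refine ⟨F, hF, hFf, n, ?_, ?_, hiso, husq⟩
      · by_contra hlt
        apply hcyc
        have hn2 : n = 0 ∨ n = 1 := by omega
        rcases hn2 with rfl | rfl
        · rw [pow_zero] at hn'
          haveI : Subsingleton (P : Subgroup G) := (Nat.card_eq_one_iff_unique.mp hn').1
          infer_instance
        · rw [pow_one] at hn'
          exact isCyclic_of_prime_card hn'
      · rw [hcard, hn']

end Cfsg.Agent.Lib.CDeg
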