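import Cfsg.Agent.Lib.CDeg9
import Cfsg.Agent.Lib.SL2EvenInv
import Cfsg.Agent.Lib.PSL2Degrees

/-!
# Constant degree minus value: `PSL(2, 2ⁿ)` (helper74)
-/

set_option autoImplicit false
set_option linter.all false

namespace Cfsg.Agent.Lib.CDeg

open scoped ComplexConjugate MatrixGroups
open Cfsg Cfsg.Agent.Lib.CharBasic Cfsg.Agent.Lib.BlockRing Cfsg.Agent.Lib.BlockThird

universe u v

attribute [local instance 5000] Fintype.ofFinite fact2

section sl

variable {F : Type v} [Field F] [Finite F]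

/-- the unipotent subgroup -/
def upHom (F : Type v) [Field F] : Multiplicative F →* Matrix.SpecialLinearGroup (Fin 2) F where
  toFun b := SL2Unip.up b.toAdd
  map_one' := SL2Unip.up_zero
  map_mul' a b := (SL2Unip.up_mul _ _).symm

theorem upHom_inj : Function.Injective (upHom F) := fun a b h =>
  Multiplicative.toAdd.injective (SL2Unip.up_inj (F := F) h)

theorem const_sl [CharP F 2] (h4 : 4 ≤ Nat.card F)
    (hsim : IsSimpleGroup (Matrix.SpecialLinearGroup (Fin 2) F))
    (hdeg : ∀ χ : Matrix.SpecialLinearGroup (Fin 2) F → ℂ, IsIrrCharacter _ χ → ∃ d : ℕ, χ 1 = d ∧ d ≤ Nat.card F + 1)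
    {s : Matrix.SpecialLinearGroup (Fin 2) F} (hs : orderOf s = 2)
    (χ : IrrCharacter (Matrix.SpecialLinearGroup (Fin 2) F)) (hχ : χ ≠ triv _) :
    (χ : Matrix.SpecialLinearGroup (Fin 2) F → ℂ) 1 - (χ : Matrix.SpecialLinearGroup (Fin 2) F → ℂ) s = Nat.card F := by
  classical
  have hcard : Nat.card (upHom F).range = Nat.card F :=
    (Nat.card_congr (MonoidHom.ofInjective (upHom_inj (F := F))).toEquiv).symm
  have hc : ∀ a b : (upHom F).range, a * b = b * a := by
    rintro ⟨_, x, rfl⟩ ⟨_, y, rfl⟩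
    apply Subtype.ext
    show upHom F x * upHom F y = upHom F y * upHom F x
    rw [← map_mul, mul_comm, map_mul]
  have hinv : ∀ x : (upHom F).range, x ≠ 1 → orderOf (x : Matrix.SpecialLinearGroup (Fin 2) F) = 2 := by
    rintro ⟨_, x, rfl⟩ hx
    refine orderOf_eq_prime ?_ (fun h => hx (Subtype.ext h))
    show (upHom F x) ^ 2 = 1
    rw [pow_two, ← map_mul]
    have : x * x = 1 := by
      apply Multiplicative.toAdd.injective
      show x.toAdd + x.toAdd = 0
      exact CharTwo.add_self_eq_zero _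
    rw [this, map_one]
  have hconst : ∀ x : (upHom F).range, x ≠ 1 →
      (fun x : (upHom F).range => (χ : Matrix.SpecialLinearGroup (Fin 2) F → ℂ) x) x =
        (χ : Matrix.SpecialLinearGroup (Fin 2) F → ℂ) s := by
    intro x hx
    haveI : Fintype F := Fintype.ofFinite F
    obtain ⟨g, hg⟩ := isConj_iff.mp (SL2EvenInv.isConj_invol (hinv x hx) hs)
    have h1 := χ.2.isCharacter.isClassFunction (x : Matrix.SpecialLinearGroup (Fin 2) F) g
    rw [hg] at h1
    exact h1.symm
  have hne : (⟨upHom F (Multiplicative.ofAdd 1), _, rfl⟩ : (upHom F).range) ≠ 1 := by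
    intro h
    have h1 : upHom F (Multiplicative.ofAdd 1) = upHom F 1 := by
      rw [(upHom F).map_one]; exact congrArg Subtype.val h
    have h2 := upHom_inj h1
    have h3 : (1 : F) = 0 := congrArg Multiplicative.toAdd h2
    exact one_ne_zero h3
  obtain ⟨lam, hlam⟩ := exists_lam_ne hc hne
  have e1 := inner_const hc _ _ hconst lam
  have e2 := inner_const hc _ _ hconst (triv _)
  rw [sum_conj_lam hlam, mul_zero, add_zero] at e1
  rw [sum_conj_triv] at e2
  obtain ⟨b, hb⟩ := (χ.2.isCharacter.comp (upHom F).range.subtype).classInner_nat lam.2.isCharacter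
  obtain ⟨a, ha⟩ := (χ.2.isCharacter.comp (upHom F).range.subtype).classInner_nat (triv (upHom F).range).2.isCharacter
  have hb' : classInner (fun x : (upHom F).range => (χ : Matrix.SpecialLinearGroup (Fin 2) F → ℂ) x)
    (lam : (upHom F).range → ℂ) = b := hb
  have ha' : classInner (fun x : (upHom F).range => (χ : Matrix.SpecialLinearGroup (Fin 2) F → ℂ) x)
    ((triv (upHom F).range : IrrCharacter (upHom F).range) : (upHom F).range → ℂ) = a := ha
  rw [hb', hcard] at e1
  rw [ha', hcard] at e2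
  have h10 : (χ : Matrix.SpecialLinearGroup (Fin 2) F → ℂ) ((1 : (upHom F).range) : Matrix.SpecialLinearGroup (Fin 2) F) =
    (χ : Matrix.SpecialLinearGroup (Fin 2) F → ℂ) 1 := rfl
  simp only [h10] at e1 e2
  obtain ⟨d, hd, hdq⟩ := hdeg χ χ.2
  have hq0 : (Nat.card F : ℂ) ≠ 0 := by exact_mod_cast Nat.card_pos.ne'
  have hb0 : b ≠ 0 := by
    intro h0
    rw [h0, Nat.cast_zero, mul_zero] at e1
    have hsK : s ∈ kerSet (G := Matrix.SpecialLinearGroup (Fin 2) F) {χ} := by
      rw [mem_kerSet]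
      intro ψ hψ
      rw [Finset.mem_singleton.mp hψ]
      exact (sub_eq_zero.mp e1.symm).symm
    rcases hsim.eq_bot_or_eq_top_of_normal _ (kerSet_normal _) with h1 | h1
    · rw [h1, Subgroup.mem_bot] at hsK
      rw [hsK, orderOf_one] at hs; norm_num at hs
    · have h2 : ∀ g, (χ : Matrix.SpecialLinearGroup (Fin 2) F → ℂ) g = (χ : Matrix.SpecialLinearGroup (Fin 2) F → ℂ) 1 := by
        intro g
        have h3 : g ∈ kerSet (G := Matrix.SpecialLinearGroup (Fin 2) F) {χ} := by rw [h1]; trivial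
        rw [mem_kerSet] at h3
        exact h3 χ (Finset.mem_singleton_self χ)
      have h4 := sum_irr_zero χ hχ
      rw [Finset.sum_congr rfl (fun g _ => h2 g), Finset.sum_const, Finset.card_univ, nsmul_eq_mul] at h4
      rcases mul_eq_zero.mp h4 with h5 | h5
      · have : Fintype.card (Matrix.SpecialLinearGroup (Fin 2) F) = 0 := by exact_mod_cast h5
        exact Fintype.card_ne_zero this
      · exact χ.2.one_ne_zero h5
  -- `d = (q - 1) b + a`
  have e3 : (Nat.card F : ℂ) * a = Nat.card F * ((b : ℂ) + (χ : Matrix.SpecialLinearGroup (Fin 2) F → ℂ) s) := by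
    rw [e2, ← e1]; ring
  have e4 : (a : ℂ) = b + (χ : Matrix.SpecialLinearGroup (Fin 2) F → ℂ) s := mul_left_cancel₀ hq0 e3
  have e5 : (Nat.card F : ℂ) * b + a = d + b := by
    rw [e4, e1, ← hd]; ring
  have e6 : Nat.card F * b + a = d + b := by exact_mod_cast e5
  have hb1 : b = 1 := by
    by_contra hne
    have hb2 : 2 ≤ b := by omega
    have h7 : Nat.card F * b + a ≤ Nat.card F + 1 + b := by omega
    obtain ⟨k, rfl⟩ : ∃ k, b = k + 2 := ⟨b - 2, by omega⟩
    obtain ⟨m, hm⟩ : ∃ m, Nat.card F = m + 4 := ⟨Nat.card F - 4, by omega⟩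
    rw [hm] at h7
    nlinarith
  rw [← e1, hb1, Nat.cast_one, mul_one]

end sl

variable {H : Type u} [Group H] [Finite H]

/-- nonprincipal irreducible characters of `PSL(2, 2ⁿ)` -/
theorem const_psl {F : Type v} [Field F] [Fintype F] {n : ℕ} (hn : 2 ≤ n) (hF : Fintype.card F = 2 ^ n)
    (e : H ≃* Matrix.ProjectiveSpecialLinearGroup (Fin 2) F) {t : H} (ht1 : t ≠ 1) (ht : t ^ 2 = 1)
    (χ : IrrCharacter H) (hχ : χ ≠ triv H) : (χ : H → ℂ) 1 - (χ : H → ℂ) t = Fintype.card F := by
  classical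
  haveI : Fact (Nat.Prime 2) := ⟨Nat.prime_two⟩
  haveI : CharP F 2 := charP_of_card_eq_prime_pow hF
  have hcF : Nat.card F = 2 ^ n := by rw [Nat.card_eq_fintype_card, hF]
  have h4 : 4 ≤ Nat.card F := by
    rw [hcF]
    calc 4 = 2 ^ 2 := by norm_num
      _ ≤ 2 ^ n := Nat.pow_le_pow_right (by norm_num) hn
  have hbot := SL2EvenMisc.center_eq_bot_of_char_two (F := F)
  have hinj : Function.Injective (QuotientGroup.mk' (Subgroup.center (Matrix.SpecialLinearGroup (Fin 2) F))) := by
    rw [← MonoidHom.ker_eq_bot_iff, QuotientGroup.ker_mk', hbot]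
  let f : Matrix.SpecialLinearGroup (Fin 2) F ≃* Matrix.ProjectiveSpecialLinearGroup (Fin 2) F :=
    MulEquiv.ofBijective (QuotientGroup.mk' (Subgroup.center (Matrix.SpecialLinearGroup (Fin 2) F)))
      ⟨hinj, QuotientGroup.mk'_surjective _⟩
  haveI hs1 : IsSimpleGroup (Matrix.ProjectiveSpecialLinearGroup (Fin 2) F) :=
    Matrix.ProjectiveSpecialLinearGroup.rank_two_simple (by omega)
  have hs2 : IsSimpleGroup (Matrix.SpecialLinearGroup (Fin 2) F) := f.isSimpleGroup
  have hdeg : ∀ χ : Matrix.SpecialLinearGroup (Fin 2) F → ℂ, IsIrrCharacter _ χ →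
      ∃ d : ℕ, χ 1 = d ∧ d ≤ Nat.card F + 1 := by
    intro χ hχ
    obtain ⟨d, hd, h⟩ := PSL2Degrees.all_sl χ hχ
    refine ⟨d, hd, ?_⟩
    rcases h with h | h | h | h
    · omega
    · omega
    · exact Nat.le_of_dvd (by omega) h
    · have := Nat.le_of_dvd (by omega) h
      omega
  have hg : Function.Surjective ((e.symm.toMonoidHom.comp f.toMonoidHom)) := e.symm.surjective.comp f.surjective
  have hval : ∀ x : H, ∃ y, (e.symm.toMonoidHom.comp f.toMonoidHom) y = x ∧ orderOf y = orderOf x := by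
    intro x
    obtain ⟨y, hy⟩ := hg x
    refine ⟨y, hy, ?_⟩
    rw [← hy]
    exact (orderOf_injective _ (e.symm.injective.comp f.injective) y).symm
  obtain ⟨s, hst, hs⟩ := hval t
  have ht2 : orderOf t = 2 := orderOf_eq_prime ht ht1
  have key := const_sl h4 hs2 hdeg (s := s) (by rw [hs, ht2])
    ⟨fun y => (χ : H → ℂ) ((e.symm.toMonoidHom.comp f.toMonoidHom) y), χ.2.comp_surjective _ hg⟩ (by
      intro h
      apply hχ
      apply Subtype.ext
      funext x
      obtain ⟨y, hy⟩ := hg x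
      have h1 := congrFun (congrArg Subtype.val h) y
      rw [← hy]
      exact h1)
  have key' : (χ : H → ℂ) ((e.symm.toMonoidHom.comp f.toMonoidHom) 1) - (χ : H → ℂ) ((e.symm.toMonoidHom.comp f.toMonoidHom) s) =
    Nat.card F := key
  rw [map_one, hst, Nat.card_eq_fintype_card] at key'
  exact key'

end Cfsg.Agent.Lib.CDeg
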