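import Cfsg.Agent.Lib.CDeg2
import Cfsg.Agent.Lib.CharBasic2

/-!
# Multiplicity-free principal 2-blocks (helper74)
-/

set_option autoImplicit false
set_option linter.all false

namespace Cfsg.Agent.Lib.CDeg

open scoped ComplexConjugate
open Cfsg Cfsg.Agent.Lib.CharBasic Cfsg.Agent.Lib.BlockRing Cfsg.Agent.Lib.BlockThird

universe u

attribute [local instance 5000] Fintype.ofFinite fact2

theorem sum_comp_hom {Q C : Type u} [Group Q] [Group C] [Finite Q] [Finite C] {f : Q →* C}
    (hf : Function.Surjective f) (φ : C → ℂ) : ∑ x : Q, φ (f x) = (Nat.card f.ker : ℂ) * ∑ y : C, φ y := by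
  classical
  rw [← Finset.sum_fiberwise (s := Finset.univ) (g := f) (f := fun x => φ (f x)), Finset.mul_sum]
  apply Finset.sum_congr rfl
  intro y _
  rw [Finset.sum_congr rfl (g := fun _ => φ y) (by
    intro x hx
    rw [(Finset.mem_filter.mp hx).2]), Finset.sum_const, nsmul_eq_mul]
  congr 1
  norm_cast
  rw [MonoidHom.card_fiber_eq_of_mem_range f (hf y) (hf 1), Nat.card_eq_fintype_card,
    Fintype.card_subtype]
  congr 1
  ext x
  simp [MonoidHom.mem_ker]

theorem classInner_comp_hom {Q C : Type u} [Group Q] [Group C] [Finite Q] [Finite C] {f : Q →* C}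
    (hf : Function.Surjective f) (a b : C → ℂ) :
    classInner (fun x => a (f x)) (fun x => b (f x)) = classInner a b := by
  unfold classInner
  rw [sum_comp_hom hf (fun y => a y * (starRingEnd ℂ) (b y)), ← mul_assoc]
  congr 1
  have h1 : Nat.card Q = Nat.card f.ker * Nat.card C := by
    rw [← Subgroup.card_mul_index f.ker, Subgroup.index_ker, f.range_eq_top.mpr hf,
      Subgroup.card_top]
  rw [h1]
  have h2 : (Nat.card f.ker : ℂ) ≠ 0 := by exact_mod_cast Nat.card_pos.ne'
  have h3 : (Nat.card C : ℂ) ≠ 0 := by exact_mod_cast Nat.card_pos.ne'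
  push_cast
  field_simp

/-- multiplicities in restrictions of constituents -/
theorem mono {Q C : Type u} [Group Q] [Group C] [Finite Q] [Finite C] (f : Q →* C) {θ : C → ℂ}
    (hθ : IsCharacter C θ) {ψ : IrrCharacter C} (h : classInner θ (ψ : C → ℂ) ≠ 0) (lam : IrrCharacter Q) :
    (classInner (fun x : Q => (ψ : C → ℂ) (f x)) (lam : Q → ℂ)).re ≤
      (classInner (fun x : Q => θ (f x)) (lam : Q → ℂ)).re := by
  classical
  have h1 : (fun x : Q => θ (f x)) = ∑ η : IrrCharacter C, classInner θ (η : C → ℂ) • fun x : Q => (η : C → ℂ) (f x) := by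
    funext x
    rw [Finset.sum_apply, hθ.isClassFunction.expansion_apply (f x)]
    rfl
  choose n hn using fun η : IrrCharacter C => hθ.classInner_nat η.2.isCharacter
  choose m hm using fun η : IrrCharacter C => (η.2.isCharacter.comp f).classInner_nat lam.2.isCharacter
  have h2 : classInner (fun x : Q => θ (f x)) (lam : Q → ℂ) = ((∑ η : IrrCharacter C, n η * m η : ℕ) : ℂ) := by
    rw [h1, classInner_sum_left]
    push_cast
    refine Finset.sum_congr rfl fun η _ => ?_
    rw [classInner_smul_left, hn, hm]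
  rw [h2, hm]
  have h3 : 1 ≤ n ψ := by
    rw [Nat.one_le_iff_ne_zero]
    intro h0
    apply h
    rw [hn, h0, Nat.cast_zero]
  have h4 : m ψ ≤ ∑ η : IrrCharacter C, n η * m η :=
    (Nat.le_mul_of_pos_left _ h3).trans
      (Finset.single_le_sum (f := fun η => n η * m η) (fun _ _ => Nat.zero_le _) (Finset.mem_univ ψ))
  simp only [Complex.natCast_re]
  exact_mod_cast h4

/-- multiplicity-free on Sylow 2-subgroups -/
def MF (M : Ideal AlgInt) (X : Type u) [Group X] [Finite X] : Prop :=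
  ∀ P : Sylow 2 X, ∀ β ∈ B0 M X, ∀ lam : IrrCharacter P,
    (classInner (fun x : P => (β : X → ℂ) x) (lam : P → ℂ)).re ≤ 1

variable {X : Type u} [Group X] [Finite X] {M : Ideal AlgInt}

theorem MF.quot (hM : IsPModular 2 M) (h : MF M X) (N : Subgroup X) [N.Normal] : MF M (X ⧸ N) := by
  intro Q β hβ lam
  haveI := isPrime hM
  obtain ⟨P, rfl⟩ := Sylow.mapSurjective_surjective (QuotientGroup.mk'_surjective N) 2 Q
  have hf := MonoidHom.subgroupMap_surjective (QuotientGroup.mk' N) (P : Subgroup X)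
  have h1 := h P ⟨fun x : X => (β : X ⧸ N → ℂ) (x : X ⧸ N), β.2.inflate N⟩
    (mem_B0.mpr (BlockInfl.inflate_mem_principal N (mem_B0.mp hβ)))
    ⟨_, lam.2.comp_surjective ((QuotientGroup.mk' N).subgroupMap (P : Subgroup X)) hf⟩
  refine le_trans (le_of_eq ?_) h1
  congr 1
  exact (classInner_comp_hom hf (fun y => (β : X ⧸ N → ℂ) y) lam.1).symm

theorem El.exists_sylow (hE : El X) {y : X} (hy : orderOf y = 2) :
    ∃ P : Sylow 2 X, y ∈ P ∧ (P : Subgroup X) ≤ Subgroup.centralizer ({y} : Set X) := by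
  have h4 : IsPGroup 2 (Subgroup.zpowers y) := IsPGroup.of_card (n := 1) (by rw [Nat.card_zpowers, hy]; rfl)
  obtain ⟨P, hP⟩ := h4.exists_le_sylow
  have h5 : y ∈ (P : Subgroup X) := hP (Subgroup.mem_zpowers y)
  refine ⟨P, h5, fun x hx => ?_⟩
  rw [Subgroup.mem_centralizer_singleton_iff]
  exact hE.comm P.2 hx h5

theorem le_cent (hE : El X) (P : Sylow 2 X) {y : X} (hy : y ∈ P) :
    (P : Subgroup X) ≤ Subgroup.centralizer ({y} : Set X) := by
  intro x hx
  rw [Subgroup.mem_centralizer_singleton_iff]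
  exact hE.comm P.2 hx hy

theorem odd_index (hE : El X) {y : X} (hy : orderOf y = 2) : ¬ 2 ∣ (Subgroup.centralizer ({y} : Set X)).index := by
  obtain ⟨P, -, hP⟩ := hE.exists_sylow hy
  exact fun h => P.not_dvd_index (h.trans (Subgroup.index_dvd_of_le hP))

theorem MF.sub (h : MF M X) (C : Subgroup X) (hC : ¬ 2 ∣ C.index)
    (hover : ∀ ψ ∈ B0 M ↥C, ∃ χ ∈ B0 M X, classInner (fun h : C => (χ : X → ℂ) h) (ψ : C → ℂ) ≠ 0) :
    MF M ↥C := by
  intro Q ψ hψ lam
  obtain ⟨χ, hχ, hχψ⟩ := hover ψ hψ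
  have hpQ : IsPGroup 2 ((Q : Subgroup C).map C.subtype) := Q.2.map C.subtype
  have hidx : ¬ 2 ∣ ((Q : Subgroup C).map C.subtype).index := by
    rw [Subgroup.index_map_subtype]
    exact Nat.Prime.not_dvd_mul Nat.prime_two Q.not_dvd_index hC
  let e := (Q : Subgroup C).equivMapOfInjective C.subtype C.subtype_injective
  have h1 := h (hpQ.toSylow hidx) χ hχ
    ⟨fun x => lam.1 (e.symm x), lam.2.comp_surjective e.symm.toMonoidHom e.symm.surjective⟩
  have h2 := mono ((Q : Subgroup C).subtype) (χ.2.isCharacter.comp C.subtype) hχψ lam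
  refine h2.trans (le_trans (le_of_eq ?_) h1)
  congr 1
  have h3 := classInner_comp_hom (f := e.symm.toMonoidHom) e.symm.surjective
    (fun x : Q => (χ : X → ℂ) (C.subtype ((Q : Subgroup C).subtype x))) lam.1
  refine h3.symm.trans ?_
  show classInner _ _ = classInner _ _
  congr 1
  funext x
  have h4 : (e (e.symm x) : X) = x := by rw [e.apply_symm_apply]
  show (χ : X → ℂ) (C.subtype ((Q : Subgroup C).subtype (e.symm x))) = (χ : X → ℂ) x
  rw [← h4]
  rfl

theorem MF.cent (hM : IsPModular 2 M) (h : MF M X) (hE : El X) {y : X} (hy : orderOf y = 2) :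
    MF M ↥(Subgroup.centralizer ({y} : Set X)) :=
  h.sub _ (odd_index hE hy) fun ψ hψ => exists_over hM (k := 1) (by rw [hy]; rfl) hψ

end Cfsg.Agent.Lib.CDeg
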