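import Cfsg.Agent.Lib.CDeg3

/-!
# Multiplicity-free principal 2-blocks: centralizers of involutions (helper74)
-/

set_option autoImplicit false
set_option linter.all false

namespace Cfsg.Agent.Lib.CDeg

open scoped ComplexConjugate
open Cfsg Cfsg.Agent.Lib.CharBasic Cfsg.Agent.Lib.BlockRing Cfsg.Agent.Lib.BlockThird

universe u

attribute [local instance 5000] Fintype.ofFinite fact2

section lin

variable {P : Type u} [Group P] [Finite P]

theorem lam_one (hc : ∀ a b : P, a * b = b * a) (lam : IrrCharacter P) : (lam : P → ℂ) 1 = 1 :=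
  lam.2.one_eq_one_of_comm hc

theorem lam_mul (hc : ∀ a b : P, a * b = b * a) (lam : IrrCharacter P) (x y : P) :
    (lam : P → ℂ) (x * y) = (lam : P → ℂ) x * (lam : P → ℂ) y :=
  lam.2.isCharacter.map_mul_of_linear (lam_one hc lam) x y

theorem lam_inv (hc : ∀ a b : P, a * b = b * a) (lam : IrrCharacter P) (x : P) :
    (lam : P → ℂ) x * (lam : P → ℂ) x⁻¹ = 1 := by
  rw [← lam_mul hc, mul_inv_cancel, lam_one hc]

theorem sum_lam (hc : ∀ a b : P, a * b = b * a) {x : P} (hx : x ≠ 1) :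
    ∑ lam : IrrCharacter P, (lam : P → ℂ) x = 0 := by
  classical
  have h1 := column_orthogonality (G := P) x 1
  rw [if_neg (by
    intro h
    apply hx
    obtain ⟨c, hc⟩ := isConj_iff.mp h.symm
    rw [mul_one, mul_inv_cancel] at hc
    exact hc.symm)] at h1
  rw [← h1]
  refine Finset.sum_congr rfl fun lam _ => ?_
  rw [lam_one hc, map_one, mul_one]

end lin

variable {X : Type u} [Group X] [Finite X] {M : Ideal AlgInt}

theorem comm_sub (hE : El X) (P : Sylow 2 X) (a b : (P : Subgroup X)) : a * b = b * a :=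
  Subtype.ext (hE.comm P.2 a.2 b.2)

theorem MF.zero_or_one (h : MF M X) (P : Sylow 2 X) {β : IrrCharacter X} (hβ : β ∈ B0 M X) (lam : IrrCharacter P) :
    classInner (fun x : P => (β : X → ℂ) x) (lam : P → ℂ) = 0 ∨
      classInner (fun x : P => (β : X → ℂ) x) (lam : P → ℂ) = 1 := by
  obtain ⟨n, hn⟩ := (β.2.isCharacter.comp (P : Subgroup X).subtype).classInner_nat lam.2.isCharacter
  have hn' : classInner (fun x : P => (β : X → ℂ) x) (lam : P → ℂ) = n := hn
  have h1 := h P β hβ lam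
  rw [hn', Complex.natCast_re] at h1
  have h2 : n ≤ 1 := by exact_mod_cast h1
  interval_cases n
  · left; rw [hn']; norm_num
  · right; rw [hn']; norm_num

/-- orthogonality to `lam` as a sum -/
theorem sum_of_classInner {P : Subgroup X} {β : IrrCharacter X} {lam : IrrCharacter P}
    (h : classInner (fun x : P => (β : X → ℂ) x) (lam : P → ℂ) = 0) :
    ∑ x : P, (lam : P → ℂ) x⁻¹ * (β : X → ℂ) (x : X) = 0 := by
  rw [classInner_def] at h
  have h1 : (Nat.card P : ℂ)⁻¹ ≠ 0 := inv_ne_zero (by exact_mod_cast Nat.card_pos.ne')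
  rcases mul_eq_zero.mp h with h | h
  · exact absurd h h1
  · rw [← h]
    refine Finset.sum_congr rfl fun x _ => ?_
    rw [lam.2.isCharacter.inv x, mul_comm]

/-- existence of an involution -/
theorem exists_involution {x : X} (hx : 2 ∣ orderOf x) : ∃ k : ℕ, orderOf (x ^ k) = 2 := by
  obtain ⟨k, hk⟩ := hx
  refine ⟨k, ?_⟩
  have h0 := orderOf_pos x
  have hk0 : k ≠ 0 := by rintro rfl; omega
  have : orderOf (x ^ k) = orderOf x / Nat.gcd (orderOf x) k := orderOf_pow' x hk0
  rw [this, hk, Nat.gcd_eq_right (Dvd.intro_left 2 rfl)]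
  exact Nat.mul_div_cancel _ (Nat.pos_of_ne_zero hk0)

theorem mem_of_norm_sylow (h : NS' X) (P : Sylow 2 X) {x : X} (hx : orderOf x = 2) : x ∈ P := by
  have h4 : IsPGroup 2 (Subgroup.zpowers x) := IsPGroup.of_card (n := 1) (by rw [Nat.card_zpowers, hx]; rfl)
  obtain ⟨Q, hQ⟩ := h4.exists_le_sylow
  obtain ⟨g, hg⟩ := MulAction.exists_smul_eq X Q P
  have h5 : x ∈ (Q : Subgroup X) := hQ (Subgroup.mem_zpowers x)
  have h6 : g * x * g⁻¹ ∈ (P : Subgroup X) := by
    rw [← hg]
    exact Subgroup.smul_mem_pointwise_smul x (MulAut.conj g) (Q : Subgroup X) h5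
  have h7 := (h P).conj_mem _ h6 g⁻¹
  have h8 : g⁻¹ * (g * x * g⁻¹) * g⁻¹⁻¹ = x := by group
  rwa [h8] at h7

/-- an involution in a subgroup is conjugate into a Sylow 2-subgroup -/
theorem exists_conj_mem (P : Sylow 2 X) {x : X} (hx : orderOf x = 2) : ∃ g : X, g * x * g⁻¹ ∈ P := by
  have h4 : IsPGroup 2 (Subgroup.zpowers x) := IsPGroup.of_card (n := 1) (by rw [Nat.card_zpowers, hx]; rfl)
  obtain ⟨Q, hQ⟩ := h4.exists_le_sylow
  obtain ⟨g, hg⟩ := MulAction.exists_smul_eq X Q P
  refine ⟨g, ?_⟩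
  have h5 : x ∈ (Q : Subgroup X) := hQ (Subgroup.mem_zpowers x)
  rw [← hg]
  exact Subgroup.smul_mem_pointwise_smul x (MulAut.conj g) (Q : Subgroup X) h5

/-- local odd cores are in the kernels -/
theorem ker_local (hM : IsPModular 2 M) (hE : El X)
    (hNS : ∀ y : X, orderOf y = 2 → NS ↥(Subgroup.centralizer ({y} : Set X))) (P : Sylow 2 X)
    {y : X} (hy : y ∈ P) {β : IrrCharacter X} (hβ : β ∈ B0 M X) {lam : IrrCharacter P}
    (h0 : classInner (fun x : P => (β : X → ℂ) x) (lam : P → ℂ) = 0)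
    {r : X} (hr : r ∈ (oddCore ↥(Subgroup.centralizer ({y} : Set X))).map (Subgroup.centralizer ({y} : Set X)).subtype) :
    (β : X → ℂ) r = (β : X → ℂ) 1 := by
  have hc := comm_sub hE P
  have hRn : ∀ x ∈ (P : Subgroup X), ∀ r ∈ (oddCore ↥(Subgroup.centralizer ({y} : Set X))).map
      (Subgroup.centralizer ({y} : Set X)).subtype, x * r * x⁻¹ ∈
      (oddCore ↥(Subgroup.centralizer ({y} : Set X))).map (Subgroup.centralizer ({y} : Set X)).subtype := by
    rintro x hx _ ⟨v, hv, rfl⟩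
    have hxC := le_cent hE P hy hx
    have h1 := (inferInstance : (oddCore ↥(Subgroup.centralizer ({y} : Set X))).Normal).conj_mem v hv ⟨x, hxC⟩
    exact ⟨_, h1, rfl⟩
  have hRodd : ∀ r ∈ (oddCore ↥(Subgroup.centralizer ({y} : Set X))).map
      (Subgroup.centralizer ({y} : Set X)).subtype, ¬ 2 ∣ orderOf r := by
    rintro _ ⟨v, hv, rfl⟩
    have := odd_of_mem_oddCore hv
    rwa [Subgroup.coe_subtype, Subgroup.orderOf_coe]
  refine core_le_ker hM (P := (P : Subgroup X)) (fun x hx hx1 => hE.order P.2 hx hx1) hRodd hRn ?_ hβ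
    (lam := (lam : P → ℂ)) (lam_mul hc lam) (lam_inv hc lam) (sum_of_classInner h0) r hr
  intro x hx hx1 c hcR hxc
  have hx2 := hE.order P.2 hx hx1
  have hcC : c ∈ Subgroup.centralizer ({x} : Set X) := by
    rw [Subgroup.mem_centralizer_singleton_iff]; exact hxc.symm
  have hle := (hNS x hx2).odd_le (hE.sub _) (P.subtype (le_cent hE P hx))
    (K := ((oddCore ↥(Subgroup.centralizer ({y} : Set X))).map
      (Subgroup.centralizer ({y} : Set X)).subtype).subgroupOf (Subgroup.centralizer ({x} : Set X)))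
    (by
      intro k hk
      have := hRodd k hk
      rwa [Subgroup.orderOf_coe] at this)
    (by
      intro z hz k hk
      exact hRn z hz k hk)
  exact ⟨⟨c, hcC⟩, hle hcR, rfl⟩

theorem oddCore_cent (hM : IsPModular 2 M) (hE : El X) (hMF : MF M X) (h0 : oddCore X = ⊥)
    (hNS : ∀ y : X, orderOf y = 2 → NS ↥(Subgroup.centralizer ({y} : Set X))) {y : X} (hy : orderOf y = 2) :
    oddCore ↥(Subgroup.centralizer ({y} : Set X)) = ⊥ := by
  classical
  obtain ⟨P, hyP, -⟩ := hE.exists_sylow hy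
  have hc := comm_sub hE P
  set B := (B0 M X).filter (fun β : IrrCharacter X => ∃ lam : IrrCharacter P,
    classInner (fun x : P => (β : X → ℂ) x) (lam : P → ℂ) = 0) with hB
  have hout : ∀ β ∈ B0 M X, β ∉ B → ∀ x ∈ P, x ≠ 1 → (β : X → ℂ) x = 0 := by
    intro β hβ hβB x hx hx1
    have h1 : ∀ lam : IrrCharacter P, classInner (fun x : P => (β : X → ℂ) x) (lam : P → ℂ) = 1 := by
      intro lam
      rcases hMF.zero_or_one P hβ lam with h | h
      · exact absurd (Finset.mem_filter.mpr ⟨hβ, lam, h⟩) hβB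
      · exact h
    have h2 := (β.2.isCharacter.comp (P : Subgroup X).subtype).isClassFunction.expansion_apply ⟨x, hx⟩
    have h3 : (β : X → ℂ) x = ∑ lam : IrrCharacter P, (lam : P → ℂ) ⟨x, hx⟩ := by
      refine h2.trans (Finset.sum_congr rfl fun lam _ => ?_)
      have h4 := h1 lam
      show classInner (fun x : P => (β : X → ℂ) x) (lam : P → ℂ) * _ = _
      rw [h4, one_mul]
    rw [h3]
    exact sum_lam hc (fun h => hx1 (congrArg Subtype.val h))
  have hKP : ∀ x ∈ P, x ≠ 1 → x ∉ kerSet B := by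
    intro x hx hx1 hxK
    rw [mem_kerSet] at hxK
    have hx2 := hE.order P.2 hx hx1
    have h1 := worth hM (g := x) (x := 1) (by rw [hx2]) (by rw [orderOf_one]; norm_num)
    have hBne : B.Nonempty := by
      refine ⟨triv X, ?_⟩
      by_contra htr
      have := hout (triv X) (triv_mem_B0 hM) htr x hx hx1
      exact one_ne_zero this
    apply sum_sq_ne hBne
    rw [← h1]
    symm
    rw [← Finset.sum_filter_add_sum_filter_not (B0 M X) (fun β : IrrCharacter X => ∃ lam : IrrCharacter P,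
      classInner (fun x : P => (β : X → ℂ) x) (lam : P → ℂ) = 0), ← hB]
    rw [Finset.sum_congr rfl (g := fun β : IrrCharacter X => (β : X → ℂ) 1 * (β : X → ℂ) 1) (fun β hβ => by
      rw [hxK β hβ])]
    have hz : ∑ β ∈ (B0 M X).filter (fun β : IrrCharacter X => ¬ ∃ lam : IrrCharacter P,
        classInner (fun x : P => (β : X → ℂ) x) (lam : P → ℂ) = 0), (β : X → ℂ) x * (β : X → ℂ) 1 = 0 := by
      refine Finset.sum_eq_zero fun β hβ => ?_
      rw [Finset.mem_filter] at hβ
      rw [hout β hβ.1 (by rw [hB, Finset.mem_filter]; exact fun h => hβ.2 h.2) x hx hx1, zero_mul]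
    rw [hz, add_zero]
  have hK : kerSet B = ⊥ := by
    haveI := kerSet_normal B
    refine eq_bot_of_odd inferInstance h0 fun k hk h2 => ?_
    obtain ⟨j, hj⟩ := exists_involution h2
    obtain ⟨g, hg⟩ := exists_conj_mem P hj
    refine hKP _ hg ?_ ((kerSet_normal B).conj_mem _ (Subgroup.pow_mem _ hk j) g)
    intro h1
    rw [mul_inv_eq_one, mul_eq_left] at h1
    rw [h1, orderOf_one] at hj
    norm_num at hj
  have hR : (oddCore ↥(Subgroup.centralizer ({y} : Set X))).map (Subgroup.centralizer ({y} : Set X)).subtype = ⊥ := by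
    rw [eq_bot_iff, ← hK]
    intro r hr
    rw [mem_kerSet]
    intro β hβ
    rw [hB, Finset.mem_filter] at hβ
    obtain ⟨hβ0, lam, hlam⟩ := hβ
    exact ker_local hM hE hNS P hyP hβ0 hlam hr
  exact (Subgroup.map_eq_bot_iff_of_injective _ (Subgroup.subtype_injective _)).mp hR

end Cfsg.Agent.Lib.CDeg
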