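import Cfsg.Agent.Lib.CDeg4

/-!
# Strongly embedded-like configurations (helper74)
-/

set_option autoImplicit false
set_option linter.all false

namespace Cfsg.Agent.Lib.CDeg

open scoped ComplexConjugate
open Cfsg Cfsg.Agent.Lib.CharBasic Cfsg.Agent.Lib.BlockRing Cfsg.Agent.Lib.BlockThird

universe u

attribute [local instance 5000] Fintype.ofFinite fact2

variable {X : Type u} [Group X] [Finite X] {M : Ideal AlgInt}

/-- centralizers of involutions have normal Sylow 2-subgroups -/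
def CNS (X : Type u) [Group X] : Prop := ∀ y : X, orderOf y = 2 → NS' ↥(Subgroup.centralizer ({y} : Set X))

theorem CNS.mem_of_comm (hE : El X) (hC : CNS X) (P : Sylow 2 X) {y x : X} (hy : y ∈ P) (hy1 : y ≠ 1)
    (hx : orderOf x = 2) (hxy : Commute x y) : x ∈ P := by
  have hy2 := hE.order P.2 hy hy1
  have hxC : x ∈ Subgroup.centralizer ({y} : Set X) := by
    rw [Subgroup.mem_centralizer_singleton_iff]; exact hxy
  have h1 := mem_of_norm_sylow (hC y hy2) (P.subtype (le_cent hE P hy)) (x := ⟨x, hxC⟩)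
    (by rw [Subgroup.orderOf_mk]; exact hx)
  exact h1

theorem CNS.norm_of_comm (hE : El X) (hC : CNS X) (P : Sylow 2 X) {y x : X} (hy : y ∈ P) (hy1 : y ≠ 1)
    (hxy : Commute x y) : x ∈ Subgroup.normalizer ((P : Subgroup X) : Set X) := by
  have hy2 := hE.order P.2 hy hy1
  have key : ∀ x : X, Commute x y → ∀ h ∈ P, x * h * x⁻¹ ∈ P := by
    intro x hxy h hh
    have hxC : x ∈ Subgroup.centralizer ({y} : Set X) := by
      rw [Subgroup.mem_centralizer_singleton_iff]; exact hxy
    exact (hC y hy2 (P.subtype (le_cent hE P hy))).conj_mem ⟨h, le_cent hE P hy hh⟩ hh ⟨x, hxC⟩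
  rw [Subgroup.mem_normalizer_iff]
  intro h
  constructor
  · exact key x hxy h
  · intro h1
    have := key x⁻¹ hxy.inv_left _ h1
    have h8 : x⁻¹ * (x * h * x⁻¹) * x⁻¹⁻¹ = h := by group
    rwa [h8] at this

theorem CNS.sylow_eq (hE : El X) (hC : CNS X) (P Q : Sylow 2 X) {y : X} (hy : y ∈ P) (hy' : y ∈ Q) (hy1 : y ≠ 1) :
    P = Q := by
  have h1 : (Q : Subgroup X) ≤ P := by
    intro x hx
    by_cases hx1 : x = 1
    · rw [hx1]; exact P.one_mem
    · exact hC.mem_of_comm hE P hy hy1 (hE.order Q.2 hx hx1) (hE.comm Q.2 hx hy')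
  exact Sylow.ext (Q.is_maximal' P.2 h1)

theorem CNS.conj_of_ne (hE : El X) (hC : CNS X) (P Q : Sylow 2 X) (h : P ≠ Q) {y z : X} (hy : y ∈ P) (hy1 : y ≠ 1)
    (hz : z ∈ Q) (hz1 : z ≠ 1) : IsConj y z := by
  have hy2 := hE.order P.2 hy hy1
  have hz2 := hE.order Q.2 hz hz1
  have hyy : y * y = 1 := by rw [← pow_two, ← hy2, pow_orderOf_eq_one]
  have hzz : z * z = 1 := by rw [← pow_two, ← hz2, pow_orderOf_eq_one]
  have hyi : y⁻¹ = y := inv_eq_of_mul_eq_one_left hyy
  have hzi : z⁻¹ = z := inv_eq_of_mul_eq_one_left hzz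
  have hinvy : y * (y * z) * y⁻¹ = (y * z)⁻¹ := by
    rw [mul_inv_rev, hyi, hzi, ← mul_assoc, hyy, one_mul]
  have hinvz : z * (y * z) * z⁻¹ = (y * z)⁻¹ := by
    rw [mul_inv_rev, hyi, hzi, mul_assoc, mul_assoc, hzz, mul_one]
  by_cases hd : 2 ∣ orderOf (y * z)
  · exfalso
    obtain ⟨k, hk⟩ := exists_involution hd
    have hkk : ((y * z) ^ k)⁻¹ = (y * z) ^ k := by
      apply inv_eq_of_mul_eq_one_left
      rw [← pow_two, ← hk, pow_orderOf_eq_one]
    have hcy : Commute ((y * z) ^ k) y := by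
      have : y * (y * z) ^ k * y⁻¹ = (y * z) ^ k := by
        rw [← conj_pow, hinvy, inv_pow, hkk]
      have h2 := mul_inv_eq_iff_eq_mul.mp this
      exact h2.symm
    have hcz : Commute ((y * z) ^ k) z := by
      have : z * (y * z) ^ k * z⁻¹ = (y * z) ^ k := by
        rw [← conj_pow, hinvz, inv_pow, hkk]
      have h2 := mul_inv_eq_iff_eq_mul.mp this
      exact h2.symm
    have m1 := hC.mem_of_comm hE P hy hy1 hk hcy
    have m2 := hC.mem_of_comm hE Q hz hz1 hk hcz
    exact h (hC.sylow_eq hE P Q m1 m2 (by intro h1; rw [h1, orderOf_one] at hk; norm_num at hk))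
  · have hR : ∀ r ∈ Subgroup.zpowers (y * z), ¬ 2 ∣ orderOf r := fun r hr h2 =>
      hd (h2.trans (orderOf_dvd_of_mem_zpowers hr))
    obtain ⟨g, hg, c, hcR, hcc, hgc⟩ := inv_coset hz2 (R := Subgroup.zpowers (y * z)) hR (by
      rintro _ ⟨k, rfl⟩
      have : z * (y * z) ^ k * z⁻¹ = (y * z) ^ (-k) := by
        rw [← conj_zpow, hinvz, inv_zpow, zpow_neg]
      show z * (y * z) ^ k * z⁻¹ ∈ _
      rw [this]
      exact Subgroup.zpow_mem_zpowers _ _) (Subgroup.mem_zpowers (y * z))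
    rw [mul_assoc y z z, hzz, mul_one] at hgc
    have hc2 : c * c = 1 := by
      have h1 : (z * c) * (z * c) = 1 := by
        rw [← hgc]
        have : g⁻¹ * y * g * (g⁻¹ * y * g) = g⁻¹ * (y * y) * g := by group
        rw [this, hyy]; group
      have h2 : (z * c) * (z * c) = (z * z) * (c * c) := by
        rw [mul_assoc z c, ← mul_assoc c z, ← hcc.eq]; simp only [mul_assoc]
      rw [h2, hzz, one_mul] at h1
      exact h1
    have hc1 : c = 1 := by
      by_contra hc1
      apply hR c hcR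
      have := orderOf_eq_prime (p := 2) (by rw [pow_two]; exact hc2) hc1
      rw [this]
    rw [hc1, mul_one] at hgc
    rw [isConj_iff]
    exact ⟨g⁻¹, by rw [inv_inv]; exact hgc⟩

theorem CNS.conj_all (hE : El X) (hC : CNS X) (P : Sylow 2 X) (hP : ¬ (P : Subgroup X).Normal) {y z : X}
    (hy : y ∈ P) (hy1 : y ≠ 1) (hz : z ∈ P) (hz1 : z ≠ 1) :
    ∃ n ∈ Subgroup.normalizer ((P : Subgroup X) : Set X), n * y * n⁻¹ = z := by
  have hP' : ∃ x ∈ P, ∃ g : X, g * x * g⁻¹ ∉ P := by
    by_contra hh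
    push Not at hh
    exact hP ⟨hh⟩
  obtain ⟨x, hx, g, hg⟩ := hP'
  have hw : g * x * g⁻¹ ∈ (g • P : Sylow 2 X) :=
    Subgroup.smul_mem_pointwise_smul x (MulAut.conj g) (P : Subgroup X) hx
  have hne : P ≠ g • P := by
    intro h
    apply hg
    rw [h]
    exact hw
  have hw1 : g * x * g⁻¹ ≠ 1 := by
    intro h
    apply hg
    rw [h]
    exact P.one_mem
  have h1 := hC.conj_of_ne hE P (g • P) hne hy hy1 hw hw1
  have h2 := hC.conj_of_ne hE P (g • P) hne hz hz1 hw hw1
  obtain ⟨n, hn⟩ := isConj_iff.mp (h1.trans h2.symm)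
  refine ⟨n, ?_, hn⟩
  have hm : z ∈ (n • P : Sylow 2 X) := by
    rw [← hn]
    exact Subgroup.smul_mem_pointwise_smul y (MulAut.conj n) (P : Subgroup X) hy
  have h3 := hC.sylow_eq hE (n • P) P hm hz hz1
  exact Sylow.smul_eq_iff_mem_normalizer.mp h3

/-- order of the normalizer -/
theorem CNS.card_norm (hE : El X) (hC : CNS X) (P : Sylow 2 X) (hP : ¬ (P : Subgroup X).Normal) {y : X}
    (hy : y ∈ P) (hy1 : y ≠ 1) :
    (Nat.card P - 1) * Nat.card (Subgroup.centralizer ({y} : Set X)) =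
      Nat.card (Subgroup.normalizer ((P : Subgroup X) : Set X)) := by
  classical
  have hle : Subgroup.centralizer ({y} : Set X) ≤ Subgroup.normalizer ((P : Subgroup X) : Set X) := by
    intro x hx
    rw [Subgroup.mem_centralizer_singleton_iff] at hx
    exact hC.norm_of_comm hE P hy hy1 hx
  letI act : MulAction ↥(Subgroup.normalizer ((P : Subgroup X) : Set X)) X :=
    MulAction.compHom X ((MulAut.conj : X →* MulAut X).comp (Subgroup.normalizer ((P : Subgroup X) : Set X)).subtype)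
  have hsm : ∀ (n : ↥(Subgroup.normalizer ((P : Subgroup X) : Set X))) (x : X), n • x = (n : X) * x * (n : X)⁻¹ :=
    fun n x => rfl
  have horb : MulAction.orbit ↥(Subgroup.normalizer ((P : Subgroup X) : Set X)) y = ((P : Subgroup X) : Set X) \ {1} := by
    ext z
    rw [MulAction.mem_orbit_iff]
    constructor
    · rintro ⟨n, rfl⟩
      rw [hsm]
      refine ⟨(Subgroup.mem_normalizer_iff.mp n.2 y).mp hy, ?_⟩
      intro h
      apply hy1
      have h' : (n : X) * y * (n : X)⁻¹ = 1 := h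
      rw [mul_inv_eq_one, mul_eq_left] at h'
      exact h'
    · rintro ⟨hz, hz1⟩
      obtain ⟨n, hn, h⟩ := hC.conj_all hE P hP hy hy1 hz hz1
      exact ⟨⟨n, hn⟩, h⟩
  have hst : MulAction.stabilizer ↥(Subgroup.normalizer ((P : Subgroup X) : Set X)) y =
      (Subgroup.centralizer ({y} : Set X)).subgroupOf (Subgroup.normalizer ((P : Subgroup X) : Set X)) := by
    ext n
    rw [MulAction.mem_stabilizer_iff, hsm, Subgroup.mem_subgroupOf, Subgroup.mem_centralizer_singleton_iff,
      mul_inv_eq_iff_eq_mul]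
  have h1 := MulAction.index_stabilizer (G := ↥(Subgroup.normalizer ((P : Subgroup X) : Set X))) (x := y)
  rw [hst, horb] at h1
  have h2 : (((P : Subgroup X) : Set X) \ {1}).ncard = Nat.card P - 1 := by
    rw [Set.ncard_diff_singleton_of_mem P.one_mem]
    rfl
  rw [h2] at h1
  have h3 := Subgroup.index_mul_card ((Subgroup.centralizer ({y} : Set X)).subgroupOf
    (Subgroup.normalizer ((P : Subgroup X) : Set X)))
  rw [h1, Nat.card_congr (Subgroup.subgroupOfEquivOfLe hle).toEquiv] at h3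
  exact h3

end Cfsg.Agent.Lib.CDeg
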