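import Cfsg.Agent.Lib.CDeg5

/-!
# Multiplicity-free principal 2-blocks: normal Sylow 2-subgroups (helper74)
-/

set_option autoImplicit false
set_option linter.all false

namespace Cfsg.Agent.Lib.CDeg

open scoped ComplexConjugate
open Cfsg Cfsg.Agent.Lib.CharBasic Cfsg.Agent.Lib.BlockRing Cfsg.Agent.Lib.BlockThird

universe u

attribute [local instance 5000] Fintype.ofFinite fact2

variable {X : Type u} [Group X] [Finite X] {M : Ideal AlgInt}

/-- a nontrivial character nontrivial at `y` -/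
theorem exists_lam_ne {P : Type u} [Group P] [Finite P] (hc : ∀ a b : P, a * b = b * a) {y : P} (hy : y ≠ 1) :
    ∃ lam : IrrCharacter P, lam ≠ triv P := by
  by_contra hh
  push Not at hh
  have h1 := sum_lam hc hy
  have h2 : ∀ lam : IrrCharacter P, (lam : P → ℂ) y = 1 := by
    intro lam; rw [hh lam]; rfl
  rw [Finset.sum_congr rfl (fun lam _ => h2 lam)] at h1
  rw [Finset.sum_const, Finset.card_univ, nsmul_eq_mul, mul_one] at h1
  have h3 : Fintype.card (IrrCharacter P) = 0 := by exact_mod_cast h1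
  exact (Fintype.card_pos_iff.mpr ⟨triv P⟩).ne' h3

theorem sum_conj_lam {P : Type u} [Group P] [Finite P] {lam : IrrCharacter P} (h : lam ≠ triv P) :
    ∑ x : P, conj ((lam : P → ℂ) x) = 0 := by
  have h1 := irr_orthonormal (triv P) lam
  rw [if_neg (Ne.symm h), classInner_def] at h1
  have h2 : (Nat.card P : ℂ)⁻¹ ≠ 0 := inv_ne_zero (by exact_mod_cast Nat.card_pos.ne')
  rcases mul_eq_zero.mp h1 with h3 | h3
  · exact absurd h3 h2
  · rw [← h3]
    refine Finset.sum_congr rfl fun x _ => ?_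
    show _ = (1 : ℂ) * _
    rw [one_mul]

theorem sum_conj_triv {P : Type u} [Group P] [Finite P] :
    ∑ x : P, conj (((triv P : IrrCharacter P) : P → ℂ) x) = (Nat.card P : ℂ) := by
  have : ∀ x : P, conj (((triv P : IrrCharacter P) : P → ℂ) x) = 1 := fun x => by
    show conj (1 : ℂ) = 1
    exact map_one _
  rw [Finset.sum_congr rfl (fun x _ => this x), Finset.sum_const, Finset.card_univ, nsmul_eq_mul, mul_one,
    Nat.card_eq_fintype_card]

/-- inner product of a function constant off the identity -/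
theorem inner_const {P : Type u} [Group P] [Finite P] (hc : ∀ a b : P, a * b = b * a) (f : P → ℂ) (z : ℂ)
    (hf : ∀ x : P, x ≠ 1 → f x = z) (lam : IrrCharacter P) :
    (Nat.card P : ℂ) * classInner f (lam : P → ℂ) = (f 1 - z) + z * ∑ x : P, conj ((lam : P → ℂ) x) := by
  classical
  have h2 : (Nat.card P : ℂ) ≠ 0 := by exact_mod_cast Nat.card_pos.ne'
  rw [classInner_def, ← mul_assoc, mul_inv_cancel₀ h2, one_mul]
  have h3 : ∀ x : P, f x * conj ((lam : P → ℂ) x) = (if x = 1 then f 1 - z else 0) + z * conj ((lam : P → ℂ) x) := by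
    intro x
    by_cases hx : x = 1
    · rw [if_pos hx, hx, lam_one hc, map_one]; ring
    · rw [if_neg hx, hf x hx, zero_add]
  rw [Finset.sum_congr rfl (fun x _ => h3 x), Finset.sum_add_distrib, Finset.sum_ite_eq' Finset.univ (1 : P),
    if_pos (Finset.mem_univ _), Finset.mul_sum]

/-- the three cases -/
theorem trich (hE : El X) (hMF : MF M X) (hC : CNS X) (P : Sylow 2 X) (hP : ¬ (P : Subgroup X).Normal) {y : X}
    (hy : y ∈ P) (hy1 : y ≠ 1) {β : IrrCharacter X} (hβ : β ∈ B0 M X) :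
    ((β : X → ℂ) 1 = 1 ∧ (β : X → ℂ) y = 1) ∨
      ((β : X → ℂ) 1 = (Nat.card P : ℂ) - 1 ∧ (β : X → ℂ) y = -1) ∨ (β : X → ℂ) y = 0 := by
  have hc := comm_sub hE P
  have hconst : ∀ x : P, x ≠ 1 → (fun x : P => (β : X → ℂ) x) x = (β : X → ℂ) y := by
    intro x hx
    obtain ⟨n, -, h⟩ := hC.conj_all hE P hP x.2 (fun h => hx (Subtype.ext h)) hy hy1
    have := β.2.isCharacter.isClassFunction (x : X) n
    show (β : X → ℂ) (x : X) = _
    rw [← h]
    exact this.symm
  have hq : (Nat.card P : ℂ) ≠ 0 := by exact_mod_cast Nat.card_pos.ne'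
  obtain ⟨lam, hlam⟩ := exists_lam_ne hc (y := (⟨y, hy⟩ : P)) (fun h => hy1 (congrArg Subtype.val h))
  have h1 := inner_const hc (fun x : P => (β : X → ℂ) x) _ hconst lam
  have h2 := inner_const hc (fun x : P => (β : X → ℂ) x) _ hconst (triv P)
  rw [sum_conj_lam hlam, mul_zero, add_zero] at h1
  have h3 := sum_conj_triv (P := ↥(P : Subgroup X))
  rw [h3] at h2
  have h0 : (β : X → ℂ) ((1 : P) : X) = (β : X → ℂ) 1 := rfl
  simp only [h0] at h1 h2
  obtain ⟨n, hn, hn1⟩ := deg_pos β
  have hne : (β : X → ℂ) 1 ≠ 0 := by rw [hn1]; exact_mod_cast hn.ne'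
  rcases hMF.zero_or_one P hβ lam with h4 | h4
  · rw [h4, mul_zero] at h1
    have h5 : (β : X → ℂ) 1 = (β : X → ℂ) y := by linear_combination -h1
    rcases hMF.zero_or_one P hβ (triv P) with h6 | h6
    · rw [h6, mul_zero] at h2
      exfalso
      have h7 : (Nat.card P : ℂ) * (β : X → ℂ) 1 = 0 := by linear_combination -h2 - (1 - (Nat.card P : ℂ)) * h5
      exact (mul_ne_zero hq hne) h7
    · rw [h6, mul_one] at h2
      have h7 : (Nat.card P : ℂ) * ((β : X → ℂ) 1 - 1) = 0 := by linear_combination -h2 - (1 - (Nat.card P : ℂ)) * h5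
      have h8 := (mul_eq_zero.mp h7).resolve_left hq
      have h9 : (β : X → ℂ) 1 = 1 := by linear_combination h8
      left
      exact ⟨h9, by rw [← h5, h9]⟩
  · rw [h4, mul_one] at h1
    right
    rcases hMF.zero_or_one P hβ (triv P) with h6 | h6
    · rw [h6, mul_zero] at h2
      have h7 : (Nat.card P : ℂ) * ((β : X → ℂ) y + 1) = 0 := by linear_combination h1 - h2
      have h8 := (mul_eq_zero.mp h7).resolve_left hq
      left
      have h9 : (β : X → ℂ) y = -1 := by linear_combination h8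
      refine ⟨?_, h9⟩
      rw [h9] at h1
      linear_combination -h1
    · rw [h6, mul_one] at h2
      have h7 : (Nat.card P : ℂ) * ((β : X → ℂ) y) = 0 := by linear_combination h1 - h2
      right
      exact (mul_eq_zero.mp h7).resolve_left hq

/-- the number of nonzero values -/
theorem sum_sq_val (hM : IsPModular 2 M) (h0 : ∀ y : X, orderOf y = 2 → oddCore ↥(Subgroup.centralizer ({y} : Set X)) = ⊥)
    (hE : El X) (hC : CNS X) (P : Sylow 2 X) {y : X} (hy : y ∈ P) (hy1 : y ≠ 1) :
    ∑ β ∈ B0 M X, (β : X → ℂ) y * (β : X → ℂ) y = (Nat.card (Subgroup.centralizer ({y} : Set X)) : ℂ) := by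
  have hy2 := hE.order P.2 hy hy1
  have h1 := BlockSection.principal_section_sum hM (u := y) (k := 1) (by rw [hy2]; rfl)
    (H := Subgroup.centralizer ({y} : Set X)) (fun g => by
      rw [Subgroup.mem_centralizer_singleton_iff]; exact ⟨fun h => (show Commute g y from h).symm, fun h => (show Commute y g from h).symm⟩)
    (y := 1) (y' := 1) (by rw [orderOf_one]; norm_num) (by rw [orderOf_one]; norm_num)
  rw [sum_B0, sum_B0] at h1
  have h2 : B0 M ↥(Subgroup.centralizer ({y} : Set X)) = Finset.univ := by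
    rw [Finset.eq_univ_iff_forall]
    intro ψ
    rw [mem_B0]
    have hPC := P.subtype (le_cent hE P hy)
    haveI : ((P.subtype (le_cent hE P hy) : Sylow 2 ↥(Subgroup.centralizer ({y} : Set X))) :
      Subgroup ↥(Subgroup.centralizer ({y} : Set X))).Normal := hC y hy2 _
    refine BlockInfl.mem_principal_of_centralizer_le hM (P.subtype (le_cent hE P hy)).2 ?_ ψ
    exact cent_le (h0 y hy2) _ (fun a ha b hb => Subtype.ext (hE.comm P.2 ha hb))
  rw [h2] at h1
  have h3 := sum_degree_sq (G := ↥(Subgroup.centralizer ({y} : Set X)))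
  have h4 : ∀ ψ : IrrCharacter ↥(Subgroup.centralizer ({y} : Set X)), (ψ : ↥(Subgroup.centralizer ({y} : Set X)) → ℂ) 1 * conj ((ψ : ↥(Subgroup.centralizer ({y} : Set X)) → ℂ) 1) =
      (ψ : ↥(Subgroup.centralizer ({y} : Set X)) → ℂ) 1 ^ 2 := by
    intro ψ
    obtain ⟨n, -, hn⟩ := deg_pos ψ
    rw [hn, Complex.conj_natCast]; ring
  rw [Finset.sum_congr rfl (fun ψ _ => h4 ψ), h3] at h1
  rw [← h1]
  refine Finset.sum_congr rfl fun β _ => ?_
  have h5 : y * ((1 : ↥(Subgroup.centralizer ({y} : Set X))) : X) = y := mul_one y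
  rw [h5]
  have h6 : y⁻¹ = y := by
    apply inv_eq_of_mul_eq_one_left
    rw [← pow_two, ← hy2, pow_orderOf_eq_one]
  rw [← β.2.isCharacter.inv y, h6]

end Cfsg.Agent.Lib.CDeg
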