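import Cfsg.Agent.Lib.CDeg6

/-!
# Multiplicity-free principal 2-blocks: the claim (helper74)
-/

set_option autoImplicit false
set_option linter.all false

namespace Cfsg.Agent.Lib.CDeg

open scoped ComplexConjugate
open Cfsg Cfsg.Agent.Lib.CharBasic Cfsg.Agent.Lib.BlockRing Cfsg.Agent.Lib.BlockThird

universe u

attribute [local instance 5000] Fintype.ofFinite fact2

variable {X : Type u} [Group X] [Finite X] {M : Ideal AlgInt}

/-- counting linear characters above a normal subgroup -/
theorem card_le_index {Y : Subgroup X} [Y.Normal] (s : Finset (IrrCharacter X))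
    (hs : ∀ χ ∈ s, ∀ x ∈ Y, (χ : X → ℂ) x = (χ : X → ℂ) 1) : s.card ≤ Y.index := by
  classical
  have h1 : ∀ χ : IrrCharacter X, ∃ ψ : IrrCharacter (X ⧸ Y), χ ∈ s → ∀ g : X, (ψ : X ⧸ Y → ℂ) g = (χ : X → ℂ) g := by
    intro χ
    by_cases h : χ ∈ s
    · obtain ⟨ψ, hψ, hg⟩ := χ.2.deflate Y (hs χ h)
      exact ⟨⟨ψ, hψ⟩, fun _ => hg⟩
    · exact ⟨triv _, fun h' => absurd h' h⟩
  choose f hf using h1
  have h2 : s.card ≤ (Finset.univ : Finset (IrrCharacter (X ⧸ Y))).card := by
    refine Finset.card_le_card_of_injOn f (fun _ _ => Finset.mem_univ _) ?_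
    intro a ha b hb hab
    apply Subtype.ext
    funext g
    have e1 := hf a ha g
    have e2 := hf b hb g
    rw [hab] at e1
    exact e1.symm.trans e2
  refine h2.trans ?_
  have h3 := sum_degree_sq (G := X ⧸ Y)
  have h4 : ((Finset.univ : Finset (IrrCharacter (X ⧸ Y))).card : ℝ) ≤ (Nat.card (X ⧸ Y) : ℝ) := by
    have h5 : (∑ χ : IrrCharacter (X ⧸ Y), ((χ : X ⧸ Y → ℂ) 1 ^ 2)).re = (Nat.card (X ⧸ Y) : ℝ) := by
      rw [h3, Complex.natCast_re]
    rw [← h5, Complex.re_sum, Finset.card_eq_sum_ones]
    push_cast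
    refine Finset.sum_le_sum fun χ _ => ?_
    obtain ⟨n, hn, hn1⟩ := deg_pos χ
    rw [hn1]
    have : (((n : ℂ)) ^ 2).re = (n : ℝ) ^ 2 := by
      rw [← Nat.cast_pow, Complex.natCast_re, Nat.cast_pow]
    rw [this]
    have h6 : (1 : ℝ) ≤ n := by exact_mod_cast hn
    nlinarith
  exact_mod_cast h4

theorem main_step (hM : IsPModular 2 M) (hE : El X) (hMF : MF M X) (h0X : oddCore X = ⊥)
    (h0 : ∀ y : X, orderOf y = 2 → oddCore ↥(Subgroup.centralizer ({y} : Set X)) = ⊥) (hC : CNS X) : NS' X := by
  classical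
  intro P
  by_contra hP
  have hPne : ∃ y ∈ P, y ≠ 1 := by
    by_contra hh
    push Not at hh
    apply hP
    have : (P : Subgroup X) = ⊥ := (Subgroup.eq_bot_iff_forall _).mpr hh
    rw [this]; infer_instance
  obtain ⟨y, hy, hy1⟩ := hPne
  have hy2 := hE.order P.2 hy hy1
  have htri := fun β hβ => trich hE hMF hC P hP hy hy1 (β := β) hβ
  set SL := (B0 M X).filter (fun β : IrrCharacter X => (β : X → ℂ) y = 1) with hSL
  set Sn := (B0 M X).filter (fun β : IrrCharacter X => (β : X → ℂ) y = -1) with hSn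
  set q := Nat.card P with hq
  have hqpos : 0 < q := Nat.card_pos
  have hneg : ¬ ((-1 : ℂ) = 1) := by norm_num
  have hneg' : ¬ ((1 : ℂ) = -1) := by norm_num
  have hneg0 : ¬ ((0 : ℂ) = -1) := by norm_num
  -- first sum
  have s1 : (SL.card : ℂ) = ((q : ℂ) - 1) * Sn.card := by
    have h1 := worth hM (g := y) (x := 1) (by rw [hy2]) (by rw [orderOf_one]; norm_num)
    have h2 : ∀ β ∈ B0 M X, (β : X → ℂ) y * (β : X → ℂ) 1 =
        (if (β : X → ℂ) y = 1 then (1 : ℂ) else 0) - ((q : ℂ) - 1) * (if (β : X → ℂ) y = -1 then (1 : ℂ) else 0) := by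
      intro β hβ
      rcases htri β hβ with ⟨a, b⟩ | ⟨a, b⟩ | b
      · rw [a, b, if_pos rfl, if_neg hneg']; ring
      · rw [a, b, if_neg hneg, if_pos rfl]; ring
      · rw [b, if_neg zero_ne_one, if_neg hneg0]; ring
    rw [Finset.sum_congr rfl h2, Finset.sum_sub_distrib, ← Finset.mul_sum, Finset.sum_boole, Finset.sum_boole] at h1
    linear_combination h1
  have s2 : (SL.card : ℂ) + Sn.card = (Nat.card (Subgroup.centralizer ({y} : Set X)) : ℂ) := by
    have h1 := sum_sq_val hM h0 hE hC P hy hy1
    have h2 : ∀ β ∈ B0 M X, (β : X → ℂ) y * (β : X → ℂ) y =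
        (if (β : X → ℂ) y = 1 then (1 : ℂ) else 0) + (if (β : X → ℂ) y = -1 then (1 : ℂ) else 0) := by
      intro β hβ
      rcases htri β hβ with ⟨a, b⟩ | ⟨a, b⟩ | b
      · rw [b, if_pos rfl, if_neg hneg']; ring
      · rw [b, if_neg hneg, if_pos rfl]; ring
      · rw [b, if_neg zero_ne_one, if_neg hneg0]; ring
    rw [Finset.sum_congr rfl h2, Finset.sum_add_distrib, Finset.sum_boole, Finset.sum_boole] at h1
    exact h1
  have hcard := hC.card_norm hE P hP hy hy1
  have hN : q * SL.card = Nat.card (Subgroup.normalizer ((P : Subgroup X) : Set X)) := by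
    have h3 : ((q : ℂ) * SL.card) = (((q - 1) * Nat.card (Subgroup.centralizer ({y} : Set X)) : ℕ) : ℂ) := by
      rw [Nat.cast_mul, Nat.cast_sub hqpos, Nat.cast_one]
      linear_combination s1 + ((q : ℂ) - 1) * s2
    rw [← hcard]
    exact_mod_cast h3
  -- the normal subgroup
  set Y : Subgroup X := commutator X ⊔ (P : Subgroup X) with hY
  haveI hYn : Y.Normal := Subgroup.Normal.of_commutator_le (G := X) (by rw [hY]; exact le_sup_left)
  have hPY : (P : Subgroup X) ≤ Y := le_sup_right
  have hLY : SL.card ≤ Y.index := by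
    refine card_le_index SL ?_
    intro β hβ
    rw [hSL, Finset.mem_filter] at hβ
    obtain ⟨hβB, hβy⟩ := hβ
    have hβ1 : (β : X → ℂ) 1 = 1 := by
      rcases htri β hβB with ⟨a, b⟩ | ⟨a, b⟩ | b
      · exact a
      · rw [b] at hβy; exact absurd hβy hneg
      · rw [b] at hβy; exact absurd hβy zero_ne_one
    have hmul := β.2.isCharacter.map_mul_of_linear hβ1
    have hPk : ∀ x ∈ P, (β : X → ℂ) x = 1 := by
      intro x hx
      by_cases hx1 : x = 1
      · rw [hx1, hβ1]
      · obtain ⟨n, -, h⟩ := hC.conj_all hE P hP hx hx1 hy hy1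
        have h3 : (β : X → ℂ) y = (β : X → ℂ) x := by
          rw [← h]; exact β.2.isCharacter.isClassFunction x n
        rw [← h3, hβy]
    let φ : X →* ℂ := { toFun := (β : X → ℂ), map_one' := hβ1, map_mul' := hmul }
    have hker : Y ≤ φ.ker := by
      rw [hY]
      refine sup_le ?_ ?_
      · rw [commutator_eq_closure, Subgroup.closure_le]
        rintro _ ⟨a, b, rfl⟩
        show φ _ = 1
        have ha : φ a * φ a⁻¹ = 1 := by rw [← map_mul, mul_inv_cancel, map_one]
        have hb : φ b * φ b⁻¹ = 1 := by rw [← map_mul, mul_inv_cancel, map_one]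
        rw [commutatorElement_def, map_mul, map_mul, map_mul]
        linear_combination φ b * φ b⁻¹ * ha + hb
      · intro x hx
        exact hPk x hx
    intro x hx
    have : φ x = 1 := hker hx
    rw [hβ1]
    exact this
  -- Frattini
  have hfr : Subgroup.normalizer ((P : Subgroup X) : Set X) ⊔ Y = ⊤ := P.normalizer_sup_eq_top' hPY
  have hidx : Y.index = Y.relIndex (Subgroup.normalizer ((P : Subgroup X) : Set X)) := by
    rw [← Subgroup.relIndex_top_right, ← hfr, Subgroup.relIndex_sup_right]
  have hcardN : Y.index * Nat.card (Y.subgroupOf (Subgroup.normalizer ((P : Subgroup X) : Set X))) =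
      Nat.card (Subgroup.normalizer ((P : Subgroup X) : Set X)) := by
    rw [hidx]
    exact Subgroup.index_mul_card _
  have hidxpos : 0 < Y.index := Nat.pos_of_ne_zero Subgroup.index_ne_zero_of_finite
  have hle : Nat.card (Y.subgroupOf (Subgroup.normalizer ((P : Subgroup X) : Set X))) ≤ q := by
    have h3 : Y.index * Nat.card (Y.subgroupOf (Subgroup.normalizer ((P : Subgroup X) : Set X))) ≤ Y.index * q := by
      rw [hcardN, ← hN, mul_comm q]
      exact Nat.mul_le_mul_right _ hLY
    exact Nat.le_of_mul_le_mul_left h3 hidxpos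
  have hPN : (P : Subgroup X) ≤ Subgroup.normalizer ((P : Subgroup X) : Set X) := Subgroup.le_normalizer
  have heq : (P : Subgroup X).subgroupOf (Subgroup.normalizer ((P : Subgroup X) : Set X)) =
      Y.subgroupOf (Subgroup.normalizer ((P : Subgroup X) : Set X)) := by
    refine Subgroup.eq_of_le_of_card_ge (fun x hx => hPY hx) ?_
    rw [Nat.card_congr (Subgroup.subgroupOfEquivOfLe hPN).toEquiv]
    exact hle
  have hYP : ∀ x ∈ Y, x ∈ Subgroup.normalizer ((P : Subgroup X) : Set X) → x ∈ P := by
    intro x hx hxN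
    have : (⟨x, hxN⟩ : ↥(Subgroup.normalizer ((P : Subgroup X) : Set X))) ∈
        (P : Subgroup X).subgroupOf (Subgroup.normalizer ((P : Subgroup X) : Set X)) := by
      rw [heq]; exact hx
    exact this
  have hbn := burn (X := ↥Y) (oddCore_sub h0X) (P.subtype hPY) (by
    intro x hx
    have hxN : (x : X) ∈ Subgroup.normalizer ((P : Subgroup X) : Set X) := by
      rw [Subgroup.mem_normalizer_iff]
      intro h
      rw [Subgroup.mem_normalizer_iff] at hx
      constructor
      · intro hh
        exact (hx ⟨h, hPY hh⟩).mp hh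
      · intro hh
        have hhY : h ∈ Y := by
          have h9 : h = (x : X)⁻¹ * ((x : X) * h * (x : X)⁻¹) * (x : X) := by group
          rw [h9]
          exact Y.mul_mem (Y.mul_mem (Y.inv_mem x.2) (hPY hh)) x.2
        exact (hx ⟨h, hhY⟩).mpr hh
    have hxP := hYP x x.2 hxN
    rw [Subgroup.mem_centralizer_iff]
    intro z hz
    exact Subtype.ext (hE.comm P.2 hz hxP))
  apply hP
  have hPeq : (P : Subgroup X) = Y := by
    apply le_antisymm hPY
    intro x hx
    have : (⟨x, hx⟩ : ↥Y) ∈ (P.subtype hPY : Subgroup ↥Y) := by rw [hbn]; trivial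
    exact this
  rw [hPeq]; exact hYn

/-- the claim -/
theorem claim (hM : IsPModular 2 M) : ∀ (m : ℕ) (X : Type u) [Group X] [Finite X], Nat.card X ≤ m →
    El X → MF M X → NS X := by
  intro m
  induction m with
  | zero =>
    intro X _ _ hm
    exact absurd (Nat.card_pos (α := X)) (by omega)
  | succ m ih =>
    intro X _ _ hm hE hMF
    by_cases h0 : oddCore X = ⊥
    · by_cases hcen : ∃ y : X, orderOf y = 2 ∧ ∀ x, Commute x y
      · obtain ⟨y, hy, hc⟩ := hcen
        haveI hn : (Subgroup.zpowers y).Normal := by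
          constructor
          rintro _ ⟨k, rfl⟩ g
          refine ⟨k, ?_⟩
          show y ^ k = g * y ^ k * g⁻¹
          rw [((hc g).zpow_right k).eq, mul_inv_cancel_right]
        refine ns_of_central h0 hy hc (ih _ ?_ (hE.quot _) (hMF.quot hM _))
        have h1 := Subgroup.card_eq_card_quotient_mul_card_subgroup (Subgroup.zpowers y)
        rw [Nat.card_zpowers, hy] at h1
        have h2 := Nat.card_pos (α := X ⧸ Subgroup.zpowers y)
        omega
      · push Not at hcen
        have hNS : ∀ y : X, orderOf y = 2 → NS ↥(Subgroup.centralizer ({y} : Set X)) := by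
          intro y hy
          refine ih _ ?_ (hE.sub _) (hMF.cent hM hE hy)
          obtain ⟨x, hx⟩ := hcen y hy
          have h1 : Nat.card (Subgroup.centralizer ({y} : Set X)) ≠ Nat.card X := by
            intro h
            have h2 := Subgroup.eq_top_of_card_eq _ h
            have h3 : x ∈ Subgroup.centralizer ({y} : Set X) := by rw [h2]; trivial
            rw [Subgroup.mem_centralizer_singleton_iff] at h3
            exact hx h3
          have h2 := Subgroup.card_le_card_group (Subgroup.centralizer ({y} : Set X))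
          omega
        have h0C := fun y (hy : orderOf y = 2) => oddCore_cent hM hE hMF h0 hNS hy
        exact (main_step hM hE hMF h0 h0C (fun y hy => (hNS y hy).ns' (h0C y hy))).ns
    · refine ns_of_quot (ih _ ?_ (hE.quot _) (hMF.quot hM _))
      have h1 := Subgroup.card_eq_card_quotient_mul_card_subgroup (oddCore X)
      have h2 : 1 < Nat.card (oddCore X) := by
        rw [Subgroup.one_lt_card_iff_ne_bot]; exact h0
      have h3 := Nat.card_pos (α := X ⧸ oddCore X)
      nlinarith

end Cfsg.Agent.Lib.CDeg
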