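import Cfsg.Agent.Lib.CDeg7
import Cfsg.Agent.Lib.CharApps

/-!
# Principal 2-blocks and normal subgroups of odd index (helper74)
-/

set_option autoImplicit false
set_option linter.all false

namespace Cfsg.Agent.Lib.CDeg

open scoped ComplexConjugate
open Cfsg Cfsg.Agent.Lib.CharBasic Cfsg.Agent.Lib.BlockRing Cfsg.Agent.Lib.BlockThird

universe u

attribute [local instance 5000] Fintype.ofFinite fact2

variable {G : Type u} [Group G] [Finite G] {M : Ideal AlgInt}

theorem not_dvd_index {P : Sylow 2 G} {K : Subgroup G} (h : (P : Subgroup G) ≤ K) : ¬ 2 ∣ K.index := by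
  intro h2
  exact P.not_dvd_index (h2.trans (Subgroup.index_dvd_of_le h))

/-- characters over a normal subgroup of odd index have odd degree -/
theorem odd_degree {P : Sylow 2 G} {K : Subgroup G} [K.Normal] (hPK : (P : Subgroup G) ≤ K) {χ : IrrCharacter G}
    (hker : ∀ g ∈ K, (χ : G → ℂ) g = (χ : G → ℂ) 1) : ∃ n : ℕ, ¬ 2 ∣ n ∧ (χ : G → ℂ) 1 = n := by
  obtain ⟨ψ, hψ, hg⟩ := χ.2.deflate K hker
  obtain ⟨n, hn, hn1⟩ := deg_pos χ
  refine ⟨n, ?_, hn1⟩
  have h1 : ψ 1 = n := by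
    have := hg 1
    rw [QuotientGroup.mk_one] at this
    rw [this, hn1]
  have h2 := CharApps.irr_degree_dvd_card hψ h1
  intro h3
  exact not_dvd_index hPK (h3.trans h2)

/-- the central character congruence for elements with odd class size -/
theorem idl_sub_deg (hM : IsPModular 2 M) {χ : IrrCharacter G} (hχ : χ ∈ B0 M G) {g : G}
    (hg : ¬ 2 ∣ (Subgroup.centralizer ({g} : Set G)).index) : MemLocalIdeal M ((χ : G → ℂ) g - (χ : G → ℂ) 1) := by
  have := isPrime hM
  rw [mem_B0] at hχ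
  have h1 := hχ g
  unfold centralChar at h1
  have h0 := χ.2.one_ne_zero
  have h2 := idl_mul_right h1 (BlockGA.loc_irr (M := M) χ 1)
  have h3 : (((Subgroup.centralizer ({g} : Set G)).index : ℂ) * (1 : ℂ) / 1 -
      ((Subgroup.centralizer ({g} : Set G)).index : ℂ) * (χ : G → ℂ) g / (χ : G → ℂ) 1) * (χ : G → ℂ) 1 =
      ((Subgroup.centralizer ({g} : Set G)).index : ℂ) * ((χ : G → ℂ) 1 - (χ : G → ℂ) g) := by
    field_simp
  rw [h3] at h2
  have h4 := idl_of_mul_left (loc_natCast _) (by rw [idl_natCast_iff hM]; exact hg) h2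
  exact idl_sub_symm h4

open scoped Pointwise in
/-- a Sylow subgroup centralizing an element with odd class size -/
theorem conj_mem_cent (P : Sylow 2 G) {g : G} (hg : ¬ 2 ∣ (Subgroup.centralizer ({g} : Set G)).index) :
    ∃ x : G, x * g * x⁻¹ ∈ Subgroup.centralizer ((P : Subgroup G) : Set G) := by
  obtain ⟨Q⟩ := (inferInstance : Nonempty (Sylow 2 ↥(Subgroup.centralizer ({g} : Set G))))
  have hQ : IsPGroup 2 ((Q : Subgroup ↥(Subgroup.centralizer ({g} : Set G))).map
      (Subgroup.centralizer ({g} : Set G)).subtype) := Q.2.map _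
  have hidx : ¬ 2 ∣ ((Q : Subgroup ↥(Subgroup.centralizer ({g} : Set G))).map
      (Subgroup.centralizer ({g} : Set G)).subtype).index := by
    rw [Subgroup.index_map_subtype]
    intro h
    rcases (Nat.prime_two.dvd_mul).mp h with h | h
    · exact Q.not_dvd_index h
    · exact hg h
  obtain ⟨x, hx⟩ := MulAction.exists_smul_eq G (hQ.toSylow hidx) P
  refine ⟨x, ?_⟩
  rw [Subgroup.mem_centralizer_iff]
  intro z hz
  have hz' : z ∈ (P : Subgroup G) := hz
  rw [← hx] at hz'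
  have h1 : z ∈ MulAut.conj x • ((hQ.toSylow hidx : Sylow 2 G) : Subgroup G) := hz'
  rw [Subgroup.mem_pointwise_smul_iff_inv_smul_mem] at h1
  obtain ⟨w, -, hw⟩ := h1
  have hwg := w.2
  rw [Subgroup.mem_centralizer_singleton_iff] at hwg
  have hw' : (w : G) = x⁻¹ * z * x := by
    have h2 : (w : G) = (MulAut.conj x)⁻¹ z := hw
    rw [h2, ← map_inv, MulAut.conj_apply, inv_inv]
  rw [hw'] at hwg
  have h3 : z * (x * g * x⁻¹) = x * ((x⁻¹ * z * x) * g) * x⁻¹ := by group
  have h4 : x * g * x⁻¹ * z = x * (g * (x⁻¹ * z * x)) * x⁻¹ := by group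
  rw [h3, h4, hwg]

theorem odd_index_of_cent (P : Sylow 2 G) {c : G} (hc : c ∈ Subgroup.centralizer ((P : Subgroup G) : Set G)) :
    ¬ 2 ∣ (Subgroup.centralizer ({c} : Set G)).index := by
  apply not_dvd_index (P := P)
  intro z hz
  rw [Subgroup.mem_centralizer_singleton_iff]
  exact (Subgroup.mem_centralizer_iff.mp hc z hz)

/-- the centralizer of a Sylow subgroup is in the kernels of odd index -/
theorem cent_le_ker (hM : IsPModular 2 M) (P : Sylow 2 G) {K : Subgroup G} [K.Normal]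
    (hPK : (P : Subgroup G) ≤ K) {χ : IrrCharacter G} (hχ : χ ∈ B0 M G)
    (hker : ∀ g, g ∈ K ↔ (χ : G → ℂ) g = (χ : G → ℂ) 1) :
    Subgroup.centralizer ((P : Subgroup G) : Set G) ≤ K := by
  classical
  have := isPrime hM
  obtain ⟨ψ, hψ, hg⟩ := χ.2.deflate K (fun g h => (hker g).mp h)
  obtain ⟨n, hn, hn1⟩ := odd_degree (P := P) hPK (fun g h => (hker g).mp h)
  have hfr : Subgroup.normalizer ((P : Subgroup G) : Set G) ⊔ K = ⊤ := P.normalizer_sup_eq_top' hPK
  have hψ1 : ψ 1 = n := by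
    have := hg 1
    rw [QuotientGroup.mk_one] at this
    rw [this, hn1]
  set D : Subgroup (G ⧸ K) := (Subgroup.centralizer ((P : Subgroup G) : Set G)).map (QuotientGroup.mk' K) with hD
  haveI hDn : D.Normal := by
    constructor
    rintro _ ⟨c, hc, rfl⟩ x
    obtain ⟨g, rfl⟩ := QuotientGroup.mk_surjective x
    have hgt : g ∈ Subgroup.normalizer ((P : Subgroup G) : Set G) ⊔ K := by rw [hfr]; trivial
    rw [Subgroup.mem_sup_of_normal_right] at hgt
    obtain ⟨m, hm, k, hk, rfl⟩ := hgt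
    refine ⟨m * c * m⁻¹, ?_, ?_⟩
    · have hc' : c ∈ Subgroup.centralizer ((P : Subgroup G) : Set G) := hc
      show m * c * m⁻¹ ∈ Subgroup.centralizer ((P : Subgroup G) : Set G)
      rw [Subgroup.mem_centralizer_iff] at hc' ⊢
      intro z hz
      have h1 : m⁻¹ * z * m ∈ (P : Subgroup G) := by
        have h2 := (Subgroup.mem_normalizer_iff.mp (Subgroup.inv_mem _ hm) z).mp hz
        rwa [inv_inv] at h2
      have h3 := hc' _ h1
      have h4 : z * (m * c * m⁻¹) = m * ((m⁻¹ * z * m) * c) * m⁻¹ := by group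
      have h5 : m * c * m⁻¹ * z = m * (c * (m⁻¹ * z * m)) * m⁻¹ := by group
      rw [h4, h5, h3]
    · have h6 : (QuotientGroup.mk' K) k = 1 := (QuotientGroup.eq_one_iff k).mpr hk
      have h7 : ((m * k : G) : G ⧸ K) = (QuotientGroup.mk' K) m := by
        rw [QuotientGroup.mk_mul]
        show (QuotientGroup.mk' K) m * (QuotientGroup.mk' K) k = _
        rw [h6, mul_one]
      rw [h7, map_mul, map_mul, map_inv]
  have hval : ∀ d ∈ D, MemLocalIdeal M (ψ d - ψ 1) := by
    rintro _ ⟨c, hc, rfl⟩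
    have h1 := idl_sub_deg hM hχ (odd_index_of_cent P hc)
    have h2 : ψ ((QuotientGroup.mk' K) c) = (χ : G → ℂ) c := hg c
    rw [h2, hψ1, ← hn1]
    exact h1
  have hDodd : ¬ 2 ∣ Nat.card D := by
    intro h
    exact not_dvd_index hPK (h.trans (Subgroup.card_subgroup_dvd_card D))
  have hall : ∀ d ∈ D, ψ d = ψ 1 := by
    rw [← BlockCore.omega_normE_eq_one_iff D hψ]
    rcases BlockCore.omega_normE_zero_or_one D hψ with h0 | h0
    · exfalso
      rw [BlockCore.omega_normE] at h0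
      have hc0 : (Nat.card D : ℂ) ≠ 0 := by exact_mod_cast Nat.card_pos.ne'
      have hs0 : ∑ x ∈ Finset.univ.filter (· ∈ D), ψ x = 0 := by
        rcases div_eq_zero_iff.mp h0 with h | h
        · exact (mul_eq_zero.mp h).resolve_left (inv_ne_zero hc0)
        · exact absurd h hψ.one_ne_zero
      have h1 : MemLocalIdeal M (∑ x ∈ Finset.univ.filter (· ∈ D), (ψ x - ψ 1)) :=
        idl_sum fun x hx => hval x (Finset.mem_filter.mp hx).2
      rw [Finset.sum_sub_distrib, hs0, Finset.sum_const, BlockCore.card_filter_mem, nsmul_eq_mul, hψ1, zero_sub,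
        idl_neg_iff, ← Nat.cast_mul, idl_natCast_iff hM] at h1
      rcases (Nat.prime_two.dvd_mul).mp h1 with h | h
      · exact hDodd h
      · exact hn h
    · exact h0
  intro c hc
  rw [hker]
  have h1 := hall _ (Subgroup.mem_map_of_mem (QuotientGroup.mk' K) hc)
  have h2 : ψ ((QuotientGroup.mk' K) c) = (χ : G → ℂ) c := hg c
  rw [h2, hψ1, ← hn1] at h1
  exact h1

/-- characters of the quotient by a normal subgroup containing the centralizer of a Sylow subgroup -/
theorem mem_B0_of_ker (hM : IsPModular 2 M) (P : Sylow 2 G) {K : Subgroup G} [K.Normal]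
    (hPK : (P : Subgroup G) ≤ K) (hC : Subgroup.centralizer ((P : Subgroup G) : Set G) ≤ K) {χ : IrrCharacter G}
    (hker : ∀ g ∈ K, (χ : G → ℂ) g = (χ : G → ℂ) 1) : χ ∈ B0 M G := by
  have := isPrime hM
  obtain ⟨n, hn, hn1⟩ := odd_degree (P := P) hPK hker
  have h0 := χ.2.one_ne_zero
  rw [mem_B0]
  intro g
  unfold centralChar
  by_cases hg : 2 ∣ (Subgroup.centralizer ({g} : Set G)).index
  · have h1 : MemLocalIdeal M ((Subgroup.centralizer ({g} : Set G)).index : ℂ) := (idl_natCast_iff hM _).mpr hg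
    refine idl_sub ?_ ?_
    · rw [mul_one, div_one]; exact h1
    · rw [mul_div_assoc]
      refine idl_mul_right h1 ?_
      rw [div_eq_mul_inv]
      refine loc_mul (BlockGA.loc_irr χ g) ?_
      rw [hn1]
      exact loc_inv_natCast hM hn
  · obtain ⟨x, hx⟩ := conj_mem_cent P hg
    have h1 : (χ : G → ℂ) g = (χ : G → ℂ) 1 := by
      rw [← hker _ (hC hx)]
      exact (χ.2.isCharacter.isClassFunction g x).symm
    have h2 : ((Subgroup.centralizer ({g} : Set G)).index : ℂ) * (1 : ℂ) / 1 -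
      ((Subgroup.centralizer ({g} : Set G)).index : ℂ) * (χ : G → ℂ) g / (χ : G → ℂ) 1 = 0 := by
      rw [h1]; field_simp; ring
    rw [h2]
    exact idl_zero

/-- nontrivial elements of odd order are not conjugate to their inverses -/
theorem not_conj_inv (hodd : ¬ 2 ∣ Nat.card G) {x : G} (hx : x ≠ 1) : ¬ IsConj x x⁻¹ := by
  intro h
  obtain ⟨g, hg⟩ := isConj_iff.mp h
  have h1 : Commute (g ^ 2) x := by
    have h2 : g ^ 2 * x * (g ^ 2)⁻¹ = x := by
      have : g ^ 2 * x * (g ^ 2)⁻¹ = g * (g * x * g⁻¹) * g⁻¹ := by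
        rw [pow_two, mul_inv_rev]; simp only [mul_assoc]
      rw [this, hg]
      have : g * x⁻¹ * g⁻¹ = (g * x * g⁻¹)⁻¹ := by group
      rw [this, hg, inv_inv]
    exact mul_inv_eq_iff_eq_mul.mp h2
  obtain ⟨k, hk⟩ := Nat.odd_iff.mpr (Nat.two_dvd_ne_zero.mp hodd)
  have h3 : Commute g x := by
    have h4 : g = (g ^ 2) ^ (k + 1) := by
      rw [← pow_mul, show 2 * (k + 1) = Nat.card G + 1 by omega, pow_succ, pow_card_eq_one', one_mul]
    rw [h4]
    exact h1.pow_left _
  rw [h3.eq, mul_inv_cancel_right] at hg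
  apply hx
  have h5 : x ^ 2 = 1 := by
    rw [pow_two]
    nth_rewrite 1 [hg]
    exact inv_mul_cancel x
  have h6 : orderOf x ∣ 2 := orderOf_dvd_of_pow_eq_one h5
  have h7 : orderOf x ∣ Nat.card G := orderOf_dvd_natCard x
  rcases (Nat.dvd_prime Nat.prime_two).mp h6 with h8 | h8
  · exact orderOf_eq_one_iff.mp h8
  · rw [h8] at h7; exact absurd h7 hodd

/-- no kernels containing a Sylow subgroup -/
theorem no_ker (hM : IsPModular 2 M) (P : Sylow 2 G) {u : G} (hreal : ∀ χ ∈ B0 M G, (χ : G → ℂ) u⁻¹ = (χ : G → ℂ) u)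
    {χ : IrrCharacter G} (hχ : χ ∈ B0 M G) (hu : (χ : G → ℂ) u ≠ (χ : G → ℂ) 1)
    (hP : ∀ x ∈ P, (χ : G → ℂ) x = (χ : G → ℂ) 1) : False := by
  classical
  haveI hKn := kerSet_normal (G := G) {χ}
  have hmem : ∀ g, g ∈ kerSet (G := G) {χ} ↔ (χ : G → ℂ) g = (χ : G → ℂ) 1 := by
    intro g
    rw [mem_kerSet]
    exact ⟨fun h => h χ (Finset.mem_singleton_self χ), fun h ψ hψ => by rw [Finset.mem_singleton.mp hψ]; exact h⟩
  have hPK : (P : Subgroup G) ≤ kerSet (G := G) {χ} := fun x hx => (hmem x).mpr (hP x hx)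
  have hC := cent_le_ker hM P hPK hχ hmem
  have huK : u ∉ kerSet (G := G) {χ} := fun h => hu ((hmem u).mp h)
  have hodd : ¬ 2 ∣ Nat.card (G ⧸ kerSet (G := G) {χ}) := not_dvd_index hPK
  have hu1 : ((u : G) : G ⧸ kerSet (G := G) {χ}) ≠ 1 := fun h => huK ((QuotientGroup.eq_one_iff u).mp h)
  have hval : ∀ ψ : IrrCharacter (G ⧸ kerSet (G := G) {χ}), (ψ : G ⧸ kerSet (G := G) {χ} → ℂ) ((u : G) : G ⧸ kerSet (G := G) {χ})⁻¹ =
      (ψ : G ⧸ kerSet (G := G) {χ} → ℂ) ((u : G) : G ⧸ kerSet (G := G) {χ}) := by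
    intro ψ
    have h1 := hreal ⟨fun x : G => (ψ : G ⧸ kerSet (G := G) {χ} → ℂ) (x : G ⧸ kerSet (G := G) {χ}), ψ.2.inflate _⟩
      (mem_B0_of_ker hM P hPK hC (by
        intro g hg
        show (ψ : G ⧸ kerSet (G := G) {χ} → ℂ) (g : G ⧸ kerSet (G := G) {χ}) =
          (ψ : G ⧸ kerSet (G := G) {χ} → ℂ) ((1 : G) : G ⧸ kerSet (G := G) {χ})
        rw [(QuotientGroup.eq_one_iff g).mpr hg, QuotientGroup.mk_one]))
    exact h1
  have h1 := column_orthogonality ((u : G) : G ⧸ kerSet (G := G) {χ}) ((u : G) : G ⧸ kerSet (G := G) {χ})⁻¹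
  rw [if_neg (not_conj_inv hodd hu1)] at h1
  have h2 := column_orthogonality ((u : G) : G ⧸ kerSet (G := G) {χ}) ((u : G) : G ⧸ kerSet (G := G) {χ})
  rw [if_pos (IsConj.refl _)] at h2
  have h3 : (Nat.card (Subgroup.centralizer ({((u : G) : G ⧸ kerSet (G := G) {χ})} : Set (G ⧸ kerSet (G := G) {χ}))) : ℂ) ≠ 0 := by
    exact_mod_cast Nat.card_pos.ne'
  apply h3
  rw [← h2, ← h1]
  refine Finset.sum_congr rfl fun ψ _ => ?_
  rw [hval ψ]

end Cfsg.Agent.Lib.CDeg
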