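import Cfsg.Agent.Lib.CDeg8
import Cfsg.Agent.Lib.Contrib

/-!
# Constant degree minus value: the arithmetic (helper74)
-/

set_option autoImplicit false
set_option linter.all false

namespace Cfsg.Agent.Lib.CDeg

open scoped ComplexConjugate
open Cfsg Cfsg.Agent.Lib.CharBasic Cfsg.Agent.Lib.BlockRing Cfsg.Agent.Lib.BlockThird

universe u

attribute [local instance 5000] Fintype.ofFinite fact2

variable {G : Type u} [Group G] [Finite G] {M : Ideal AlgInt}

/-- the hypothesis -/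
def CD (M : Ideal AlgInt) (G : Type u) [Group G] [Finite G] (u : G) (c : ℂ) : Prop :=
  ∀ χ ∈ B0 M G, χ ≠ triv G → (χ : G → ℂ) 1 - (χ : G → ℂ) u = c

theorem ne_triv_iff {χ : IrrCharacter G} : χ ≠ triv G ↔ (χ : G → ℂ) ≠ fun _ => 1 :=
  ⟨fun h h' => h (Subtype.ext h'), fun h h' => h (by rw [h']; rfl)⟩

theorem CD.inv {u : G} {c : ℂ} (h : CD M G u c) {χ : IrrCharacter G} (hχ : χ ∈ B0 M G) (h1 : χ ≠ triv G) :
    (χ : G → ℂ) u⁻¹ = (χ : G → ℂ) 1 - c := by
  obtain ⟨ψ, hψ, hψ1, hg⟩ := exists_conj χ hχ (ne_triv_iff.mp h1)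
  have h2 := h ψ hψ (ne_triv_iff.mpr hψ1)
  rw [hg, hg, inv_one] at h2
  linear_combination -h2

theorem CD.real {u : G} {c : ℂ} (h : CD M G u c) {χ : IrrCharacter G} (hχ : χ ∈ B0 M G) :
    (χ : G → ℂ) u⁻¹ = (χ : G → ℂ) u := by
  by_cases h1 : χ = triv G
  · rw [h1]; rfl
  · have h2 := h χ hχ h1
    rw [h.inv hχ h1]
    linear_combination h2

theorem CD.ne_zero (hM : IsPModular 2 M) {u : G} {c : ℂ} (h : CD M G u c) (h0 : oddCore G = ⊥) (hu : u ≠ 1) :
    c ≠ 0 := by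
  intro hc
  apply hu
  rw [← Subgroup.mem_bot, ← h0, mem_oddCore_iff hM]
  intro χ hχ
  by_cases h1 : χ = triv G
  · rw [h1]; rfl
  · have h2 := h χ hχ h1
    rw [hc] at h2
    exact (sub_eq_zero.mp h2).symm

theorem CD.val_ne {u : G} {c : ℂ} (h : CD M G u c) (hc : c ≠ 0) {χ : IrrCharacter G} (hχ : χ ∈ B0 M G)
    (h1 : χ ≠ triv G) : (χ : G → ℂ) u ≠ (χ : G → ℂ) 1 := by
  intro h2
  apply hc
  rw [← h χ hχ h1, h2, sub_self]

theorem sum_split (hM : IsPModular 2 M) (f : IrrCharacter G → ℂ) :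
    ∑ χ ∈ B0 M G, f χ = f (triv G) + ∑ χ ∈ (B0 M G).erase (triv G), f χ :=
  (Finset.add_sum_erase _ _ (triv_mem_B0 hM)).symm

theorem CD.sum (hM : IsPModular 2 M) {u : G} {c : ℂ} (h : CD M G u c) (g : G) :
    ∑ χ ∈ B0 M G, (χ : G → ℂ) g * (χ : G → ℂ) u⁻¹ =
      ∑ χ ∈ B0 M G, (χ : G → ℂ) g * (χ : G → ℂ) 1 - c * ∑ χ ∈ (B0 M G).erase (triv G), (χ : G → ℂ) g := by
  rw [sum_split hM, sum_split hM (fun χ : IrrCharacter G => (χ : G → ℂ) g * (χ : G → ℂ) 1), Finset.mul_sum, add_sub_assoc,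
    ← Finset.sum_sub_distrib]
  congr 1
  refine Finset.sum_congr rfl fun χ hχ => ?_
  rw [Finset.mem_erase] at hχ
  rw [h.inv hχ.2 hχ.1]
  ring

theorem theta_ne (hM : IsPModular 2 M) {g : G} (hg : 2 ∣ orderOf g) :
    ∑ χ ∈ (B0 M G).erase (triv G), (χ : G → ℂ) g ≠ 0 := by
  have := isPrime hM
  intro h
  have h1 := idl_sum_singular hM hg
  rw [sum_split hM, h, add_zero] at h1
  exact one_not_idl h1

theorem CD.section (hM : IsPModular 2 M) {u : G} {c : ℂ} (h : CD M G u c) (hc : c ≠ 0) {g y z : G}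
    (hg : 2 ∣ orderOf g) (hy : IsPPart 2 g y) (hz : IsPPart 2 u z) : IsConj y z := by
  by_contra hyz
  have h1 := orth hM hy hz hyz
  have h2 := worth hM hg (x := 1) (by rw [orderOf_one]; norm_num)
  rw [h.sum hM, h2, zero_sub, neg_eq_zero] at h1
  exact theta_ne hM hg ((mul_eq_zero.mp h1).resolve_left hc)

theorem even_card (h0 : oddCore G = ⊥) {u : G} (hu : u ≠ 1) : 2 ∣ Nat.card G := by
  by_contra hodd
  apply hu
  have h1 : (⊤ : Subgroup G) = ⊥ := eq_bot_of_odd inferInstance h0 fun k _ h2 => hodd (h2.trans (orderOf_dvd_natCard k))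
  have h2 : u ∈ (⊤ : Subgroup G) := trivial
  rw [h1] at h2
  exact h2

theorem isPPart_self {y : G} {k : ℕ} (hy : orderOf y = 2 ^ k) : IsPPart 2 y y :=
  ⟨1, mul_one y, Commute.one_right y, ⟨k, hy⟩, by rw [orderOf_one]; norm_num⟩

/-- the structure of `u` -/
theorem CD.exists_t (hM : IsPModular 2 M) {u : G} {c : ℂ} (h : CD M G u c) (h0 : oddCore G = ⊥) (hu : u ≠ 1) :
    ∃ t v : G, t * v = u ∧ Commute t v ∧ orderOf t = 2 ∧ ¬ 2 ∣ orderOf v ∧
      (∀ y : G, orderOf y = 2 → IsConj y t) ∧ El G := by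
  have hc := h.ne_zero hM h0 hu
  obtain ⟨t, ht⟩ := BlockSecond.exists_isPPart (G := G) hM.1 u
  obtain ⟨y, hy⟩ := exists_prime_orderOf_dvd_card' 2 (even_card h0 hu)
  have h1 := h.section hM hc (g := y) (y := y) (z := t) (by rw [hy]) (isPPart_self (k := 1) (by rw [hy]; rfl)) ht
  have h2 : orderOf t = 2 := by
    obtain ⟨x, hx⟩ := isConj_iff.mp h1
    rw [← hx, ← hy]
    exact orderOf_injective (MulAut.conj x).toMonoidHom (MulAut.conj x).injective y
  have ht' := ht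
  obtain ⟨v, hv1, hv2, -, hv4⟩ := ht
  refine ⟨t, v, hv1, hv2, h2, hv4, ?_, ?_⟩
  · intro y hy
    exact h.section hM hc (g := y) (y := y) (z := t) (by rw [hy]) (isPPart_self (k := 1) (by rw [hy]; rfl)) ht'
  · intro x hx
    by_contra hx2
    have h3 : orderOf x ∣ 2 ^ 2 := orderOf_dvd_of_pow_eq_one hx
    obtain ⟨k, hk, hk'⟩ := (Nat.dvd_prime_pow Nat.prime_two).mp h3
    have hk2 : k = 2 := by
      interval_cases k
      · exfalso; apply hx2; rw [orderOf_eq_one_iff.mp hk', one_pow]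
      · exfalso; apply hx2; rw [← pow_one 2, ← hk', pow_orderOf_eq_one]
      · rfl
    subst hk2
    have h4 := h.section hM hc (g := x) (y := x) (z := t) (by rw [hk']; norm_num) (isPPart_self hk') ht'
    obtain ⟨g, hg⟩ := isConj_iff.mp h4
    have h5 : orderOf t = orderOf x := by
      rw [← hg]
      exact orderOf_injective (MulAut.conj g).toMonoidHom (MulAut.conj g).injective x
    rw [h2, hk'] at h5
    norm_num at h5

/-- inner products on elementary abelian subgroups -/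
theorem inner_P {t : G} (ht : ∀ y : G, orderOf y = 2 → IsConj y t) (hE : El G) {P : Subgroup G} (hP : IsPGroup 2 P)
    (χ : IrrCharacter G) {lam : IrrCharacter P} (hlam : lam ≠ triv P) :
    (Nat.card P : ℂ) * classInner (fun x : P => (χ : G → ℂ) x) (lam : P → ℂ) = (χ : G → ℂ) 1 - (χ : G → ℂ) t := by
  have hc : ∀ a b : P, a * b = b * a := fun a b => Subtype.ext (hE.comm hP a.2 b.2)
  have h1 := inner_const hc (fun x : P => (χ : G → ℂ) x) ((χ : G → ℂ) t) (by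
    intro x hx
    obtain ⟨g, hg⟩ := isConj_iff.mp (ht (x : G) (hE.order hP x.2 (fun h => hx (Subtype.ext h))))
    show (χ : G → ℂ) (x : G) = _
    rw [← hg]
    exact (χ.2.isCharacter.isClassFunction _ _).symm) lam
  rw [sum_conj_lam hlam, mul_zero, add_zero] at h1
  exact h1

theorem inner_P_triv {t : G} (ht : ∀ y : G, orderOf y = 2 → IsConj y t) (hE : El G) {P : Subgroup G} (hP : IsPGroup 2 P)
    (χ : IrrCharacter G) :
    (Nat.card P : ℂ) * classInner (fun x : P => (χ : G → ℂ) x) ((triv P : IrrCharacter P) : P → ℂ) =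
      (χ : G → ℂ) 1 - (χ : G → ℂ) t + (χ : G → ℂ) t * Nat.card P := by
  have hc : ∀ a b : P, a * b = b * a := fun a b => Subtype.ext (hE.comm hP a.2 b.2)
  have h1 := inner_const hc (fun x : P => (χ : G → ℂ) x) ((χ : G → ℂ) t) (by
    intro x hx
    obtain ⟨g, hg⟩ := isConj_iff.mp (ht (x : G) (hE.order hP x.2 (fun h => hx (Subtype.ext h))))
    show (χ : G → ℂ) (x : G) = _
    rw [← hg]
    exact (χ.2.isCharacter.isClassFunction _ _).symm) (triv P)
  rw [sum_conj_triv] at h1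
  exact h1

theorem exists_b {t : G} (ht : ∀ y : G, orderOf y = 2 → IsConj y t) (hE : El G) {P : Subgroup G} (hP : IsPGroup 2 P)
    (hP1 : P ≠ ⊥) (χ : IrrCharacter G) : ∃ b : ℕ, (χ : G → ℂ) 1 - (χ : G → ℂ) t = (Nat.card P : ℂ) * b := by
  obtain ⟨y, hy1⟩ := Subgroup.ne_bot_iff_exists_ne_one.mp hP1
  have hc : ∀ a b : P, a * b = b * a := fun a b => Subtype.ext (hE.comm hP a.2 b.2)
  obtain ⟨lam, hlam⟩ := exists_lam_ne hc hy1
  obtain ⟨n, hn⟩ := (χ.2.isCharacter.comp P.subtype).classInner_nat lam.2.isCharacter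
  refine ⟨n, ?_⟩
  rw [← inner_P ht hE hP χ hlam, ← hn]
  rfl

/-- scaled sums over regular elements are integers -/
theorem int_reg (P : Sylow 2 G) (s : Finset (IrrCharacter G)) :
    ∃ m : ℤ, (Nat.card P : ℂ) * ((Nat.card G : ℂ)⁻¹ * ∑ g ∈ (Finset.univ.filter fun g : G => ¬ 2 ∣ orderOf g),
      ∑ χ ∈ s, (χ : G → ℂ) g) = m := by
  classical
  have h1 := Contrib.isGeneralized_regInd (G := G) Nat.prime_two
  have h2 : ∀ χ : IrrCharacter G, ∃ m : ℤ, (Nat.card P : ℂ) * ((Nat.card G : ℂ)⁻¹ *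
      ∑ g ∈ (Finset.univ.filter fun g : G => ¬ 2 ∣ orderOf g), (χ : G → ℂ) g) = m := by
    intro χ
    obtain ⟨m, hm⟩ := χ.2.isGeneralized.classInner_int h1
    refine ⟨m, ?_⟩
    rw [← hm, classInner_def, P.card_eq_multiplicity, Finset.sum_filter, mul_left_comm, Finset.mul_sum]
    congr 1
    refine Finset.sum_congr rfl fun g _ => ?_
    by_cases hg : 2 ∣ orderOf g
    · rw [if_neg (not_not.mpr hg), if_pos hg, map_zero]; ring
    · rw [if_pos hg, if_neg hg, Complex.conj_natCast]; ring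
  choose m hm using h2
  refine ⟨∑ χ ∈ s, m χ, ?_⟩
  rw [Finset.sum_comm]
  push_cast
  rw [Finset.mul_sum, Finset.mul_sum]
  exact Finset.sum_congr rfl fun χ _ => hm χ

theorem sum_irr_zero (χ : IrrCharacter G) (h : χ ≠ triv G) : ∑ g : G, (χ : G → ℂ) g = 0 := by
  have h1 := irr_orthonormal χ (triv G)
  rw [if_neg h, classInner_def] at h1
  have h2 : (Nat.card G : ℂ)⁻¹ ≠ 0 := inv_ne_zero (by exact_mod_cast Nat.card_pos.ne')
  rcases mul_eq_zero.mp h1 with h3 | h3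
  · exact absurd h3 h2
  · rw [← h3]
    refine Finset.sum_congr rfl fun x _ => ?_
    show _ = _ * conj (1 : ℂ)
    rw [map_one, mul_one]

theorem CD.int_quot (hM : IsPModular 2 M) {u : G} {c : ℂ} (h : CD M G u c) (hc : c ≠ 0) (hu2 : 2 ∣ orderOf u)
    (P : Sylow 2 G) : ∃ m : ℤ, (Nat.card P : ℂ) = c * m := by
  classical
  obtain ⟨m, hm⟩ := int_reg P ((B0 M G).erase (triv G))
  refine ⟨m, ?_⟩
  have hG : (Nat.card G : ℂ) ≠ 0 := by exact_mod_cast Nat.card_pos.ne'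
  have h1 : c * ∑ g ∈ (Finset.univ.filter fun g : G => ¬ 2 ∣ orderOf g),
      ∑ χ ∈ (B0 M G).erase (triv G), (χ : G → ℂ) g = Nat.card G := by
    rw [Finset.mul_sum]
    have h2 : ∀ g ∈ (Finset.univ.filter fun g : G => ¬ 2 ∣ orderOf g),
        c * ∑ χ ∈ (B0 M G).erase (triv G), (χ : G → ℂ) g = ∑ χ ∈ B0 M G, (χ : G → ℂ) g * (χ : G → ℂ) 1 := by
      intro g hg
      have h3 := worth hM (g := u⁻¹) (x := g) (by rwa [orderOf_inv]) (Finset.mem_filter.mp hg).2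
      have h4 := h.sum hM g
      have h5 : ∑ χ ∈ B0 M G, (χ : G → ℂ) g * (χ : G → ℂ) u⁻¹ = 0 := by
        rw [← h3]
        exact Finset.sum_congr rfl fun χ _ => mul_comm _ _
      rw [h5] at h4
      linear_combination h4
    rw [Finset.sum_congr rfl h2]
    have h6 : ∑ g ∈ (Finset.univ.filter fun g : G => ¬ 2 ∣ orderOf g), ∑ χ ∈ B0 M G, (χ : G → ℂ) g * (χ : G → ℂ) 1 =
        ∑ g : G, ∑ χ ∈ B0 M G, (χ : G → ℂ) g * (χ : G → ℂ) 1 := by
      apply Finset.sum_subset (Finset.filter_subset _ _)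
      intro g _ hg
      have hg' : 2 ∣ orderOf g := by
        by_contra h7
        exact hg (Finset.mem_filter.mpr ⟨Finset.mem_univ g, h7⟩)
      exact worth hM hg' (by rw [orderOf_one]; norm_num)
    rw [h6, Finset.sum_comm, sum_split hM]
    have h7 : ∑ χ ∈ (B0 M G).erase (triv G), ∑ g : G, (χ : G → ℂ) g * (χ : G → ℂ) 1 = 0 := by
      refine Finset.sum_eq_zero fun χ hχ => ?_
      rw [← Finset.sum_mul, sum_irr_zero χ (Finset.mem_erase.mp hχ).1, zero_mul]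
    rw [h7, add_zero]
    have h8 : ∀ g : G, ((triv G : IrrCharacter G) : G → ℂ) g * ((triv G : IrrCharacter G) : G → ℂ) 1 = 1 :=
      fun g => one_mul (1 : ℂ)
    rw [Finset.sum_congr rfl (fun g _ => h8 g), Finset.sum_const, Finset.card_univ, nsmul_eq_mul, mul_one,
      Nat.card_eq_fintype_card]
  rw [← hm]
  have h9 : c * ((Nat.card P : ℂ) * ((Nat.card G : ℂ)⁻¹ * ∑ g ∈ (Finset.univ.filter fun g : G => ¬ 2 ∣ orderOf g),
      ∑ χ ∈ (B0 M G).erase (triv G), (χ : G → ℂ) g)) = (Nat.card P : ℂ) * ((Nat.card G : ℂ)⁻¹ *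
      (c * ∑ g ∈ (Finset.univ.filter fun g : G => ¬ 2 ∣ orderOf g),
      ∑ χ ∈ (B0 M G).erase (triv G), (χ : G → ℂ) g)) := by ring
  rw [h9, h1, inv_mul_cancel₀ hG, mul_one]

/-- **The arithmetic conclusion**: `χ(1) - χ(t) = |P|` -/
theorem CD.eq_card (hM : IsPModular 2 M) {u : G} {c : ℂ} (h : CD M G u c) (hc : c ≠ 0) (hu2 : 2 ∣ orderOf u)
    {t : G} (ht2 : orderOf t = 2) (ht : ∀ y : G, orderOf y = 2 → IsConj y t) (hE : El G) (P : Sylow 2 G)
    {χ : IrrCharacter G} (hχ : χ ∈ B0 M G) (hχ1 : χ ≠ triv G) :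
    (χ : G → ℂ) 1 - (χ : G → ℂ) t = Nat.card P := by
  classical
  have hP1 : (P : Subgroup G) ≠ ⊥ := by
    intro h1
    obtain ⟨g, hg⟩ := exists_conj_mem P ht2
    have h2 : g * t * g⁻¹ ∈ (P : Subgroup G) := hg
    rw [h1, Subgroup.mem_bot, mul_inv_eq_one, mul_eq_left] at h2
    rw [h2, orderOf_one] at ht2
    norm_num at ht2
  have hb := fun χ : IrrCharacter G => exists_b ht hE P.2 hP1 χ
  choose b hb using hb
  choose d hd0 hd using (fun χ : IrrCharacter G => deg_pos χ)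
  have hq0 : (Nat.card P : ℂ) ≠ 0 := by exact_mod_cast Nat.card_pos.ne'
  have hbpos : ∀ χ ∈ (B0 M G).erase (triv G), 1 ≤ b χ := by
    intro χ hχ
    rw [Finset.mem_erase] at hχ
    by_contra hlt
    have hb0 : b χ = 0 := by omega
    have h1 := hb χ
    rw [hb0, Nat.cast_zero, mul_zero] at h1
    refine no_ker hM P (fun χ hχ => h.real hχ) hχ.2 (h.val_ne hc hχ.2 hχ.1) ?_
    intro x hx
    by_cases hx1 : x = 1
    · rw [hx1]
    · obtain ⟨g, hg⟩ := isConj_iff.mp (ht x (hE.order P.2 hx hx1))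
      have h2 : (χ : G → ℂ) t = (χ : G → ℂ) x := by
        rw [← hg]; exact χ.2.isCharacter.isClassFunction _ _
      rw [← h2]
      exact (sub_eq_zero.mp h1).symm
  -- the two sums
  have h1 := h.sum hM 1
  have h2 : ∑ χ ∈ B0 M G, (χ : G → ℂ) 1 * (χ : G → ℂ) u⁻¹ = 0 := by
    rw [← worth hM (g := u⁻¹) (x := 1) (by rwa [orderOf_inv]) (by rw [orderOf_one]; norm_num)]
    exact Finset.sum_congr rfl fun χ _ => mul_comm _ _
  rw [h2] at h1
  have h3 := worth hM (g := t) (x := 1) (by rw [ht2]) (by rw [orderOf_one]; norm_num)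
  have h4 : ∑ χ ∈ B0 M G, (χ : G → ℂ) 1 * (χ : G → ℂ) 1 =
      (Nat.card P : ℂ) * ∑ χ ∈ (B0 M G).erase (triv G), (b χ : ℂ) * (χ : G → ℂ) 1 := by
    have h5 : ∀ χ : IrrCharacter G, (χ : G → ℂ) 1 * (χ : G → ℂ) 1 =
        (χ : G → ℂ) t * (χ : G → ℂ) 1 + (Nat.card P : ℂ) * ((b χ : ℂ) * (χ : G → ℂ) 1) := by
      intro χ
      linear_combination (χ : G → ℂ) 1 * hb χ
    rw [Finset.sum_congr rfl (fun χ _ => h5 χ), Finset.sum_add_distrib, h3, zero_add, ← Finset.mul_sum,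
      sum_split hM (fun χ : IrrCharacter G => (b χ : ℂ) * (χ : G → ℂ) 1)]
    have h6 : (b (triv G) : ℂ) = 0 := by
      have h7 := hb (triv G)
      have h8 : ((triv G : IrrCharacter G) : G → ℂ) 1 - ((triv G : IrrCharacter G) : G → ℂ) t = 0 := sub_self (1 : ℂ)
      rw [h8] at h7
      exact (mul_eq_zero.mp h7.symm).resolve_left hq0
    rw [h6, zero_mul, zero_add]
  obtain ⟨m, hm⟩ := h.int_quot hM hc hu2 P
  rw [h4, hm] at h1
  have h5 : (m : ℂ) * ∑ χ ∈ (B0 M G).erase (triv G), (b χ : ℂ) * (χ : G → ℂ) 1 =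
      ∑ χ ∈ (B0 M G).erase (triv G), (χ : G → ℂ) 1 := by
    apply mul_left_cancel₀ hc
    linear_combination -h1
  simp only [hd] at h5
  have h6 : (m : ℤ) * ∑ χ ∈ (B0 M G).erase (triv G), (b χ : ℤ) * (d χ : ℤ) =
      ∑ χ ∈ (B0 M G).erase (triv G), (d χ : ℤ) := by exact_mod_cast h5
  have hmem : χ ∈ (B0 M G).erase (triv G) := Finset.mem_erase.mpr ⟨hχ1, hχ⟩
  have hS1 : 0 < ∑ χ ∈ (B0 M G).erase (triv G), (d χ : ℤ) :=
    Finset.sum_pos (fun χ _ => by exact_mod_cast hd0 χ) ⟨χ, hmem⟩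
  have hle : ∑ χ ∈ (B0 M G).erase (triv G), (d χ : ℤ) ≤ ∑ χ ∈ (B0 M G).erase (triv G), (b χ : ℤ) * (d χ : ℤ) := by
    refine Finset.sum_le_sum fun χ hχ => ?_
    have h7 : (1 : ℤ) ≤ b χ := by exact_mod_cast hbpos χ hχ
    have h8 : (0 : ℤ) < d χ := by exact_mod_cast hd0 χ
    nlinarith
  have hm1 : m = 1 := by
    have hmpos : 0 < m := by
      by_contra hle'
      push Not at hle'
      have := mul_nonpos_of_nonpos_of_nonneg hle' (hS1.le.trans hle)
      omega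
    by_contra hne
    have hm2 : 2 ≤ m := by omega
    nlinarith
  rw [hm1, one_mul] at h6
  have hb1 : b χ = 1 := by
    have h9 : ∑ χ ∈ (B0 M G).erase (triv G), ((b χ : ℤ) * (d χ : ℤ) - d χ) = 0 := by
      rw [Finset.sum_sub_distrib, h6, sub_self]
    have h10 := (Finset.sum_eq_zero_iff_of_nonneg (fun χ hχ => by
      have h7 : (1 : ℤ) ≤ b χ := by exact_mod_cast hbpos χ hχ
      have h8 : (0 : ℤ) < d χ := by exact_mod_cast hd0 χ
      nlinarith)).mp h9 χ hmem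
    have h8 : (0 : ℤ) < d χ := by exact_mod_cast hd0 χ
    have h11 : ((b χ : ℤ) - 1) * d χ = 0 := by linear_combination h10
    have h12 := (mul_eq_zero.mp h11).resolve_right h8.ne'
    omega
  rw [hb χ, hb1, Nat.cast_one, mul_one]

end Cfsg.Agent.Lib.CDeg
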