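import Mathlib
import Cfsg.Agent.Lib.CanonExt

/-! Clifford correspondence combined with Gallagher's theorem over an extendible character, and its
compatibility with restriction to subgroups and with automorphisms. -/

set_option autoImplicit false
set_option maxHeartbeats 400000

namespace Cfsg.Agent.Lib.CGData

open Cfsg Cfsg.Agent.Lib.CharBasic Cfsg.Agent.Lib.Clifford Cfsg.Agent.Lib.CliffordCorr Cfsg.Agent.Lib.CanonExt
open scoped ComplexConjugate

universe u v w x

/-- Deflation along a surjective homomorphism. -/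
theorem deflate_hom {T : Type u} {B : Type v} [Group T] [Group B] [Finite T] (π : T →* B)
    (hπ : Function.Surjective π) {χ : T → ℂ} (hχ : IsIrrCharacter T χ) (hker : ∀ t, π t = 1 → χ t = χ 1) :
    ∃ ψ : B → ℂ, IsIrrCharacter B ψ ∧ ∀ t, ψ (π t) = χ t := by
  obtain ⟨ψ, hψ, h⟩ := hχ.deflate π.ker (fun n hn => hker n hn)
  set e := QuotientGroup.quotientKerEquivOfSurjective π hπ with he
  refine ⟨fun b => ψ (e.symm b), hψ.comp_surjective e.symm.toMonoidHom e.symm.surjective, fun t => ?_⟩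
  have h1 : e.symm (π t) = (QuotientGroup.mk t : T ⧸ π.ker) := by
    rw [MulEquiv.symm_apply_eq]; rfl
  show ψ (e.symm (π t)) = χ t
  rw [h1, h]

/-- Clifford–Gallagher data. -/
structure CG {L : Type u} [Group L] (N T : Subgroup L) [N.Normal] {B : Type v} [Group B] (θ : N → ℂ)
    (η : T → ℂ) (π : T →* B) : Prop where
  hNT : N ≤ T
  hθ : IsIrrCharacter N θ
  hT : ∀ g : L, g ∈ T ↔ cj N g θ = θ
  hη : IsIrrCharacter T η
  hext : ∀ n : N, η ⟨n, hNT n.2⟩ = θ n
  hπ : Function.Surjective π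
  hker : ∀ t : T, π t = 1 ↔ (t : L) ∈ N

/-- The twisted character of `T`. -/
def tws {L : Type u} [Group L] {T : Subgroup L} {B : Type v} [Group B] (η : T → ℂ) (π : T →* B)
    (β : B → ℂ) : T → ℂ := fun t => β (π t) * η t

/-- The character of `L`. -/
noncomputable def phi {L : Type u} [Group L] [Fintype L] {T : Subgroup L} {B : Type v} [Group B] (η : T → ℂ)
    (π : T →* B) (β : B → ℂ) : L → ℂ := indFun T (tws η π β)

section
variable {L : Type u} [Group L] {N T : Subgroup L} [hN : N.Normal] {B : Type v} [Group B] {θ : N → ℂ}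
  {η : T → ℂ} {π : T →* B}

theorem CG.finite_B [Finite L] (D : CG N T θ η π) : Finite B := Finite.of_surjective π D.hπ

theorem CG.theta' (D : CG N T θ η π) :
    IsIrrCharacter (N.subgroupOf T) (fun x => θ (subEquiv N T D.hNT x)) :=
  (isIrrCharacter_comp_mulEquiv_iff (subEquiv N T D.hNT)).mpr D.hθ

theorem CG.ext' (D : CG N T θ η π) (n : N.subgroupOf T) : η n = θ (subEquiv N T D.hNT n) := by
  rw [← D.hext]
  congr 1

theorem CG.tws_irr [Finite L] (D : CG N T θ η π) {β : B → ℂ} (hβ : IsIrrCharacter B β) :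
    IsIrrCharacter T (tws η π β) := by
  classical
  have := Fintype.ofFinite L
  have := Fintype.ofFinite T
  have h := (bijOn D.theta' D.hη D.ext').mapsTo (x := fun t => β (π t)) ⟨hβ.comp_surjective π D.hπ, fun n => by
    have h1 : π (n : T) = 1 := (D.hker _).2 n.2
    show β (π n) = β (π 1)
    rw [h1, map_one]⟩
  exact h.1

theorem CG.tws_inj [Finite L] (D : CG N T θ η π) {β β' : B → ℂ} (hβ : IsIrrCharacter B β)
    (hβ' : IsIrrCharacter B β') (h : tws η π β = tws η π β') : β = β' := by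
  classical
  have := Fintype.ofFinite L
  have := Fintype.ofFinite T
  have h0 : ∀ {β : B → ℂ}, IsIrrCharacter B β → (fun t => β (π t)) ∈
      {β : T → ℂ | IsIrrCharacter T β ∧ ∀ n : N.subgroupOf T, β n = β 1} := by
    intro β hβ
    refine ⟨hβ.comp_surjective π D.hπ, fun n => ?_⟩
    have h1 : π (n : T) = 1 := (D.hker _).2 n.2
    show β (π n) = β (π 1)
    rw [h1, map_one]
  have h1 := (bijOn D.theta' D.hη D.ext').injOn (h0 hβ) (h0 hβ') h
  funext b
  obtain ⟨t, rfl⟩ := D.hπ b
  exact congrFun h1 t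

theorem CG.tws_surj [Finite L] [Fintype N] (D : CG N T θ η π) {ψ : T → ℂ} (hψ : IsIrrCharacter T ψ)
    (h : classInner (resTo N T D.hNT ψ) θ ≠ 0) : ∃ β : B → ℂ, IsIrrCharacter B β ∧ tws η π β = ψ := by
  classical
  have := Fintype.ofFinite L
  have := Fintype.ofFinite T
  have := Fintype.ofFinite (N.subgroupOf T)
  obtain ⟨β, hβ, hc, h1⟩ := exists_gallagher D.theta' D.hη D.ext' hψ (by
    rw [classInner_resTo T D.hNT ψ θ]; exact h)
  obtain ⟨β', hβ', h2⟩ := deflate_hom π D.hπ hβ (fun t ht => hc ⟨t, (D.hker t).1 ht⟩)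
  refine ⟨β', hβ', ?_⟩
  rw [h1]
  funext t
  show β' (π t) * η t = β t * η t
  rw [h2]

theorem CG.resTo_tws (D : CG N T θ η π) (β : B → ℂ) : resTo N T D.hNT (tws η π β) = β 1 • θ := by
  funext n
  show β (π ⟨n, D.hNT n.2⟩) * η ⟨n, D.hNT n.2⟩ = β 1 * θ n
  rw [D.hext, (D.hker _).2 n.2]

theorem CG.inner_resTo_tws [Fintype N] (D : CG N T θ η π) (β : B → ℂ) :
    classInner (resTo N T D.hNT (tws η π β)) θ = β 1 := by
  rw [D.resTo_tws, classInner_smul_left, D.hθ.classInner_self, mul_one]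

variable [Fintype L]

theorem CG.irr [Fintype N] (D : CG N T θ η π) {β : B → ℂ} (hβ : IsIrrCharacter B β) :
    IsIrrCharacter L (phi η π β) ∧ classInner (fun n : N => phi η π β n) θ = β 1 := by
  have h := corr_irr D.hNT D.hθ D.hT (D.tws_irr hβ) (by rw [D.inner_resTo_tws]; exact hβ.one_ne_zero)
  exact ⟨h.1, h.2.trans (D.inner_resTo_tws β)⟩

theorem CG.surj [Fintype N] (D : CG N T θ η π) {χ : L → ℂ} (hχ : IsIrrCharacter L χ)
    (h : classInner (fun n : N => χ n) θ ≠ 0) : ∃ β : B → ℂ, IsIrrCharacter B β ∧ phi η π β = χ := by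
  obtain ⟨ψ, hψ, h1, h2⟩ := corr_surj D.hNT D.hθ D.hT hχ h
  obtain ⟨β, hβ, h3⟩ := D.tws_surj hψ (by rw [h2]; exact h)
  exact ⟨β, hβ, by rw [phi, h3, h1]⟩

theorem CG.inj [Fintype N] (D : CG N T θ η π) {β β' : B → ℂ} (hβ : IsIrrCharacter B β)
    (hβ' : IsIrrCharacter B β') (h : phi η π β = phi η π β') : β = β' := by
  apply D.tws_inj hβ hβ'
  exact corr_inj D.hNT D.hθ D.hT (D.tws_irr hβ) (D.tws_irr hβ')
    (by rw [D.inner_resTo_tws]; exact hβ.one_ne_zero) (by rw [D.inner_resTo_tws]; exact hβ'.one_ne_zero) h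

omit hN in
theorem phi_one (β : B → ℂ) : (phi η π β) 1 = (T.index : ℂ) * (β 1 * η 1) := by
  rw [phi, IndFun.indFun_one, tws, map_one]

/-- Equivariance. -/
theorem phi_comp (σ : L ≃* L) (hσ : ∀ t : L, t ∈ T ↔ σ t ∈ T) {τ : B → B}
    (hη : ∀ t : T, η ⟨σ t, (hσ t).1 t.2⟩ = η t) (hτ : ∀ t : T, π ⟨σ t, (hσ t).1 t.2⟩ = τ (π t)) (β : B → ℂ) :
    (fun x => phi η π β (σ x)) = phi η π (fun b => β (τ b)) := by
  funext x
  show indFun T (tws η π β) (σ x) = indFun T (tws η π fun b => β (τ b)) x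
  rw [IndFun.indFun_apply, IndFun.indFun_apply]
  congr 1
  rw [← Equiv.sum_comp σ.toEquiv]
  refine Finset.sum_congr rfl fun y _ => ?_
  show extendByZero T (tws η π β) ((σ y)⁻¹ * σ x * σ y) = _
  have h1 : (σ y)⁻¹ * σ x * σ y = σ (y⁻¹ * x * y) := by rw [map_mul, map_mul, map_inv]
  rw [h1]
  by_cases h : y⁻¹ * x * y ∈ T
  · rw [IndFun.extendByZero_mem T _ h, IndFun.extendByZero_mem T _ ((hσ _).1 h)]
    show β (π _) * η _ = β (τ (π _)) * η _
    rw [← hη ⟨_, h⟩, ← hτ ⟨_, h⟩]
  · rw [IndFun.extendByZero_not_mem T _ h, IndFun.extendByZero_not_mem T _ (fun h' => h ((hσ _).2 h'))]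

end

/-- The restriction formula. -/
theorem restrict {L : Type u} [Group L] [Fintype L] {N T : Subgroup L} [N.Normal] [Fintype N]
    {B : Type v} [Group B] {θ : N → ℂ} {η : T → ℂ} {π : T →* B} (D : CG N T θ η π)
    {L' : Type w} [Group L'] [Fintype L'] {N' T' : Subgroup L'} [N'.Normal] [Fintype N']
    {B' : Type x} [Group B'] [Fintype B'] {θ' : N' → ℂ} {η' : T' → ℂ} {π' : T' →* B'} (D' : CG N' T' θ' η' π')
    (j : L' →* L) (jN : N' ≃* N) (hjN : ∀ n, (jN n : L) = j n) (hθ : ∀ n, θ' n = θ (jN n))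
    (jT : T' →* T) (hjT : ∀ t, (jT t : L) = j t) (hη : ∀ t, η' t = η (jT t))
    (ι : B' →* B) (hι : ∀ t, ι (π' t) = π (jT t))
    {β : B → ℂ} (hβ : IsIrrCharacter B β) {κ : B' → ℂ} (hκ : IsIrrCharacter B' κ) :
    classInner (fun x : L' => phi η π β (j x)) (phi η' π' κ) = classInner (fun b => β (ι b)) κ := by
  classical
  have := Fintype.ofFinite T
  have := Fintype.ofFinite T'
  obtain ⟨hΦ, hΦ1⟩ := D.irr hβ
  have hψ := D.tws_irr hβ
  have hψ' := D'.tws_irr hκ
  -- decompose the restriction to `T`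
  have h1 : classInner (fun t : T => phi η π β t) (tws η π β) ≠ 0 := by
    have h2 := IndFun.frobenius_reciprocity T (tws η π β) (phi η π β) hΦ.isClassFunction
    have h3 : classInner (indFun T (tws η π β)) (phi η π β) = 1 := hΦ.classInner_self
    rw [h3] at h2
    rw [← conj_classInner, ← h2, map_one]
    exact one_ne_zero
  obtain ⟨Δ, hΔ, hΔ1⟩ := Clifford.degree_le_of_constituent (hΦ.isCharacter.restrict T) hψ h1
  have hΔ0 : classInner (resTo N T D.hNT Δ) θ = 0 := by
    have h2 : (fun n : N => phi η π β n) = resTo N T D.hNT (tws η π β) + resTo N T D.hNT Δ := by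
      funext n
      have := congrFun hΔ1 ⟨n, D.hNT n.2⟩
      exact this
    rw [h2, classInner_add_left, D.inner_resTo_tws] at hΦ1
    linear_combination hΦ1
  -- Frobenius reciprocity for `T'`
  have h4 : classInner (fun x : L' => phi η π β (j x)) (phi η' π' κ) =
      classInner (fun t : T' => phi η π β (j t)) (tws η' π' κ) := by
    have h2 := IndFun.frobenius_reciprocity T' (tws η' π' κ) (fun x : L' => phi η π β (j x))
      (isClassFunction_comp_hom j hΦ.isClassFunction)
    rw [← conj_classInner, phi, h2, conj_classInner]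
  rw [h4]
  have h5 : (fun t : T' => phi η π β (j t)) = (fun t => tws η π β (jT t)) + fun t => Δ (jT t) := by
    funext t
    have := congrFun hΔ1 (jT t)
    rw [hjT] at this
    exact this
  rw [h5, classInner_add_left]
  -- the second summand vanishes
  have h6 : classInner (fun t : T' => Δ (jT t)) (tws η' π' κ) = 0 := by
    by_contra hne
    obtain ⟨b, hb, hb1⟩ := Clifford.degree_le_of_constituent (hΔ.comp jT) hψ' hne
    have h7 : classInner (resTo N' T' D'.hNT (fun t => Δ (jT t))) θ' = 0 := by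
      rw [← hΔ0]
      have e1 : resTo N' T' D'.hNT (fun t => Δ (jT t)) = fun n => resTo N T D.hNT Δ (jN n) := by
        funext n
        show Δ (jT ⟨n, D'.hNT n.2⟩) = Δ ⟨(jN n : L), _⟩
        congr 1
        apply Subtype.ext
        rw [hjT, hjN]
      have e2 : θ' = fun n => θ (jN n) := funext hθ
      rw [e1, e2]
      exact classInner_comp_equiv jN _ _
    have h8 : resTo N' T' D'.hNT (fun t => Δ (jT t)) = resTo N' T' D'.hNT (tws η' π' κ) + resTo N' T' D'.hNT b := by
      rw [hb1]; rfl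
    rw [h8, classInner_add_left, D'.inner_resTo_tws] at h7
    obtain ⟨m, hm⟩ := (isCharacter_resTo D'.hNT hb).classInner_nat D'.hθ.isCharacter
    obtain ⟨n, hn0, hn⟩ := hκ.exists_degree
    rw [hm, hn] at h7
    have h9 : n + m = 0 := by exact_mod_cast h7
    omega
  rw [h6, add_zero]
  -- the first summand
  have hβι : IsCharacter B' (fun b => β (ι b)) := hβ.isCharacter.comp ι
  have h10 : (fun t : T' => tws η π β (jT t)) =
      ∑ l : IrrCharacter B', classInner (fun b => β (ι b)) (l : B' → ℂ) • tws η' π' (l : B' → ℂ) := by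
    funext t
    have h11 := hβι.isClassFunction.expansion_apply (π' t)
    rw [Finset.sum_apply]
    show β (π (jT t)) * η (jT t) = _
    rw [← hη, ← hι]
    have h12 : β (ι (π' t)) = ∑ l : IrrCharacter B', classInner (fun b => β (ι b)) (l : B' → ℂ) * (l : B' → ℂ) (π' t) := h11
    rw [h12, Finset.sum_mul]
    refine Finset.sum_congr rfl fun l _ => ?_
    rw [Pi.smul_apply, smul_eq_mul, tws, mul_assoc]
  rw [h10, classInner_sum_left, Finset.sum_eq_single ⟨κ, hκ⟩]
  · rw [classInner_smul_left, hψ'.classInner_self, mul_one]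
  · intro l _ hl
    rw [classInner_smul_left, (D'.tws_irr l.2).classInner_eq_zero hψ', mul_zero]
    intro h
    exact hl (Subtype.ext (D'.tws_inj l.2 hκ h))
  · intro h; exact absurd (Finset.mem_univ _) h

end Cfsg.Agent.Lib.CGData
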