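import Mathlib

/-! Conjugacy classes of the quotient by the centre (helper41). -/

set_option autoImplicit false

namespace Cfsg.Agent.Lib.CentralClasses

variable {G : Type*} [Group G]

/-- multiplication of conjugacy classes by central elements -/
def mulC (z : Subgroup.center G) : ConjClasses G → ConjClasses G :=
  Quotient.map (fun g => (z : G) * g) (by
    intro a b h
    obtain ⟨c, hc⟩ := isConj_iff.1 h
    refine isConj_iff.2 ⟨c, ?_⟩
    have hz : c * (z : G) = (z : G) * c := (Subgroup.mem_center_iff.1 z.2 c)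
    rw [← hc, ← mul_assoc, hz]
    group)

theorem mulC_mk (z : Subgroup.center G) (g : G) : mulC z (ConjClasses.mk g) = ConjClasses.mk ((z : G) * g) := rfl

/-- the action of the centre on the classes -/
@[instance_reducible] def act : MulAction (Subgroup.center G) (ConjClasses G) where
  smul z C := mulC z C
  one_smul C := by
    obtain ⟨g, rfl⟩ := ConjClasses.exists_rep C
    change mulC 1 (ConjClasses.mk g) = _
    rw [mulC_mk, Subgroup.coe_one, one_mul]
  mul_smul z w C := by
    obtain ⟨g, rfl⟩ := ConjClasses.exists_rep C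
    change mulC (z * w) (ConjClasses.mk g) = mulC z (mulC w (ConjClasses.mk g))
    rw [mulC_mk, mulC_mk, mulC_mk, Subgroup.coe_mul, mul_assoc]

/-- the class in the quotient -/
def toQ (C : ConjClasses G) : ConjClasses (G ⧸ Subgroup.center G) := ConjClasses.map (QuotientGroup.mk' (Subgroup.center G)) C

theorem toQ_mk (g : G) : toQ (ConjClasses.mk g) = ConjClasses.mk ((g : G ⧸ Subgroup.center G)) := rfl

theorem toQ_surjective : Function.Surjective (toQ (G := G)) := by
  intro C
  obtain ⟨x, rfl⟩ := ConjClasses.exists_rep C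
  obtain ⟨g, rfl⟩ := QuotientGroup.mk_surjective x
  exact ⟨ConjClasses.mk g, rfl⟩

theorem toQ_mulC (z : Subgroup.center G) (C : ConjClasses G) : toQ (mulC z C) = toQ C := by
  obtain ⟨g, rfl⟩ := ConjClasses.exists_rep C
  rw [mulC_mk, toQ_mk, toQ_mk]
  congr 1
  rw [QuotientGroup.eq]
  have h1 : (z : G) * g = g * (z : G) := (Subgroup.mem_center_iff.1 z.2 g).symm
  rw [h1, mul_inv_rev, mul_assoc, inv_mul_cancel, mul_one]
  exact inv_mem z.2

theorem exists_of_toQ_eq {C D : ConjClasses G} (h : toQ C = toQ D) : ∃ z : Subgroup.center G, mulC z C = D := by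
  obtain ⟨g, rfl⟩ := ConjClasses.exists_rep C
  obtain ⟨k, rfl⟩ := ConjClasses.exists_rep D
  rw [toQ_mk, toQ_mk, ConjClasses.mk_eq_mk_iff_isConj, isConj_iff] at h
  obtain ⟨c, hc⟩ := h
  obtain ⟨c, rfl⟩ := QuotientGroup.mk_surjective c
  rw [← QuotientGroup.mk_inv, ← QuotientGroup.mk_mul, ← QuotientGroup.mk_mul, QuotientGroup.eq] at hc
  refine ⟨⟨_, hc⟩, ?_⟩
  rw [mulC_mk, ConjClasses.mk_eq_mk_iff_isConj, isConj_iff]
  refine ⟨c, ?_⟩
  have hz := Subgroup.mem_center_iff.1 hc c
  change c * ((c * g * c⁻¹)⁻¹ * k * g) * c⁻¹ = k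
  have hz2 := Subgroup.mem_center_iff.1 hc (c * g * c⁻¹)
  calc c * ((c * g * c⁻¹)⁻¹ * k * g) * c⁻¹ = (c * ((c * g * c⁻¹)⁻¹ * k)) * (g * c⁻¹) := by group
    _ = ((c * g * c⁻¹)⁻¹ * k * c) * (g * c⁻¹) := by rw [hz]
    _ = ((c * g * c⁻¹)⁻¹ * k) * (c * g * c⁻¹) := by group
    _ = (c * g * c⁻¹) * ((c * g * c⁻¹)⁻¹ * k) := by rw [hz2]
    _ = k := by group

/-- Burnside's lemma for the centre acting on the classes -/
theorem card_mul_card [Finite G] : Nat.card (Subgroup.center G) * Nat.card (ConjClasses (G ⧸ Subgroup.center G)) =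
    ∑ᶠ z : Subgroup.center G, Nat.card {C : ConjClasses G // mulC z C = C} := by
  classical
  have := Fintype.ofFinite (Subgroup.center G)
  have := Fintype.ofFinite (ConjClasses G)
  let _ := act (G := G)
  have := Fintype.ofFinite (MulAction.orbitRel.Quotient (Subgroup.center G) (ConjClasses G))
  have h1 := MulAction.sum_card_fixedBy_eq_card_orbits_mul_card_group (Subgroup.center G) (ConjClasses G)
  have h2 : Nat.card (MulAction.orbitRel.Quotient (Subgroup.center G) (ConjClasses G)) =
      Nat.card (ConjClasses (G ⧸ Subgroup.center G)) := by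
    have hf : ∀ C D : ConjClasses G, (MulAction.orbitRel (Subgroup.center G) (ConjClasses G)) C D → toQ C = toQ D := by
      intro C D h
      obtain ⟨z, hz⟩ := (MulAction.orbitRel_apply.1 h)
      rw [← hz]
      exact toQ_mulC z D
    apply Nat.card_congr
    apply Equiv.ofBijective (Quotient.lift toQ hf)
    constructor
    · intro x y
      induction x using Quotient.inductionOn with
      | h C =>
        induction y using Quotient.inductionOn with
        | h D =>
          intro h
          obtain ⟨z, hz⟩ := exists_of_toQ_eq (show toQ D = toQ C from (show toQ C = toQ D from h).symm)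
          apply Quotient.sound
          exact MulAction.orbitRel_apply.2 ⟨z, hz⟩
    · intro y
      obtain ⟨C, hC⟩ := toQ_surjective y
      exact ⟨Quotient.mk _ C, hC⟩
  rw [finsum_eq_sum_of_fintype, ← h2, mul_comm, Nat.card_eq_fintype_card, Nat.card_eq_fintype_card]
  refine Eq.trans ?_ (h1.symm.trans ?_)
  · congr 1
  · apply Finset.sum_congr rfl
    intro z _
    rw [← Nat.card_eq_fintype_card]
    rfl

end Cfsg.Agent.Lib.CentralClasses
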