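import Cfsg.Agent.Lib.DegTools
import Cfsg.Agent.Lib.AbLS1

/-!
# Embedding solvable groups in central quotients of groups of central type (helper80)
-/

set_option autoImplicit false
set_option linter.unusedSectionVars false
set_option linter.style.haveILetI false
set_option linter.unusedSimpArgs false
set_option linter.unusedVariables false

namespace Cfsg.Agent.Lib.CentralTypeEmb

universe u

/-- a finite group with a maximal normal subgroup of prime index, in homomorphism form -/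
theorem exists_surj (G : Type u) [Group G] [Finite G] [Nontrivial G] (hs : Group.IsSolvable G) :
    ∃ p : ℕ, p.Prime ∧ ∃ π : G →* Multiplicative (ZMod p), Function.Surjective π := by
  classical
  have hfin : ({N : Subgroup G | N.Normal ∧ N ≠ ⊤}).Finite := Set.toFinite _
  obtain ⟨N, hN⟩ := hfin.exists_maximal ⟨⊥, by
    refine ⟨inferInstance, bot_ne_top⟩⟩
  haveI : N.Normal := hN.1.1
  haveI : Nontrivial (G ⧸ N) := (QuotientGroup.nontrivial_iff).2 hN.1.2
  haveI : IsSimpleGroup (G ⧸ N) := by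
    refine ⟨fun H hH => ?_⟩
    by_cases h : H.comap (QuotientGroup.mk' N) = ⊤
    · right
      rw [eq_top_iff]
      intro x _
      obtain ⟨g, rfl⟩ := QuotientGroup.mk'_surjective N x
      have : g ∈ H.comap (QuotientGroup.mk' N) := by rw [h]; trivial
      exact this
    · left
      have h1 : N ≤ H.comap (QuotientGroup.mk' N) := by
        intro g hg
        rw [Subgroup.mem_comap, QuotientGroup.mk'_apply, (QuotientGroup.eq_one_iff g).2 hg]
        exact H.one_mem
      have h2 := hN.2 ⟨inferInstance, h⟩ h1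
      rw [eq_bot_iff]
      intro x hx
      obtain ⟨g, rfl⟩ := QuotientGroup.mk'_surjective N x
      rw [Subgroup.mem_bot, QuotientGroup.mk'_apply, QuotientGroup.eq_one_iff]
      exact h2 hx
  have hc : ∀ a b : G ⧸ N, a * b = b * a := IsSimpleGroup.comm_iff_isSolvable.2 inferInstance
  haveI : IsMulCommutative (G ⧸ N) := ⟨⟨hc⟩⟩
  have hp : (Nat.card (G ⧸ N)).Prime := Group.is_simple_iff_prime_card.1 inferInstance
  haveI : Fact (Nat.card (G ⧸ N)).Prime := ⟨hp⟩
  let e : (G ⧸ N) ≃* Multiplicative (ZMod (Nat.card (G ⧸ N))) :=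
    mulEquivOfPrimeCardEq (p := Nat.card (G ⧸ N)) rfl (by simp [Nat.card_zmod])
  exact ⟨_, hp, e.toMonoidHom.comp (QuotientGroup.mk' N), e.surjective.comp (QuotientGroup.mk'_surjective N)⟩

/-- wreath product of `H` with a Heisenberg group of order `p ^ 3` acting through a quotient of order `p` -/
@[ext]
structure Wr (H : Type u) (p : ℕ) where
  k : ZMod p → H
  a : ZMod p
  b : ZMod p
  c : ZMod p

namespace Wr

variable {H : Type u} [Group H] {p : ℕ}

instance : Mul (Wr H p) := ⟨fun x y => ⟨fun t => x.k t * y.k (t - x.a), x.a + y.a, x.b + y.b, x.c + y.c + x.a * y.b⟩⟩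
instance : One (Wr H p) := ⟨⟨fun _ => 1, 0, 0, 0⟩⟩
instance : Inv (Wr H p) := ⟨fun x => ⟨fun t => (x.k (t + x.a))⁻¹, -x.a, -x.b, -x.c + x.a * x.b⟩⟩

@[simp] theorem mul_k (x y : Wr H p) (t : ZMod p) : (x * y).k t = x.k t * y.k (t - x.a) := rfl
@[simp] theorem mul_a (x y : Wr H p) : (x * y).a = x.a + y.a := rfl
@[simp] theorem mul_b (x y : Wr H p) : (x * y).b = x.b + y.b := rfl
@[simp] theorem mul_c (x y : Wr H p) : (x * y).c = x.c + y.c + x.a * y.b := rfl
@[simp] theorem one_k (t : ZMod p) : (1 : Wr H p).k t = 1 := rfl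
@[simp] theorem one_a : (1 : Wr H p).a = 0 := rfl
@[simp] theorem one_b : (1 : Wr H p).b = 0 := rfl
@[simp] theorem one_c : (1 : Wr H p).c = 0 := rfl
@[simp] theorem inv_k (x : Wr H p) (t : ZMod p) : (x⁻¹).k t = (x.k (t + x.a))⁻¹ := rfl
@[simp] theorem inv_a (x : Wr H p) : (x⁻¹).a = -x.a := rfl
@[simp] theorem inv_b (x : Wr H p) : (x⁻¹).b = -x.b := rfl
@[simp] theorem inv_c (x : Wr H p) : (x⁻¹).c = -x.c + x.a * x.b := rfl

instance : Group (Wr H p) :=
  Group.ofLeftAxioms
    (fun x y z => by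
      ext
      · simp only [mul_k, mul_a, mul_assoc]
        rw [sub_sub]
      · simp only [mul_a]; ring
      · simp only [mul_b]; ring
      · simp only [mul_c, mul_a, mul_b]; ring)
    (fun x => by
      ext
      · simp
      · simp
      · simp
      · simp)
    (fun x => by
      ext
      · simp
      · simp
      · simp
      · simp only [mul_c, inv_c, inv_a, one_c]; ring)

def equiv : Wr H p ≃ (ZMod p → H) × ZMod p × ZMod p × ZMod p where
  toFun x := (x.k, x.a, x.b, x.c)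
  invFun x := ⟨x.1, x.2.1, x.2.2.1, x.2.2.2⟩
  left_inv _ := rfl
  right_inv _ := rfl

instance [NeZero p] [Finite H] : Finite (Wr H p) := Finite.of_equiv _ equiv.symm

theorem card_eq [NeZero p] [Finite H] : Nat.card (Wr H p) = Nat.card H ^ p * (p * (p * p)) := by
  rw [Nat.card_congr equiv, Nat.card_prod, Nat.card_prod, Nat.card_prod, Nat.card_zmod, Nat.card_fun,
    Nat.card_zmod]

/-- the new normal subgroup -/
def zz (Z : Subgroup H) [hZ : Z.Normal] : Subgroup (Wr H p) where
  carrier := {x | (∀ t, x.k t ∈ Z) ∧ x.a = 0 ∧ x.b = 0}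
  one_mem' := ⟨fun _ => Z.one_mem, rfl, rfl⟩
  mul_mem' := by
    rintro x y ⟨hx, hxa, hxb⟩ ⟨hy, hya, hyb⟩
    refine ⟨fun t => Z.mul_mem (hx _) (hy _), ?_, ?_⟩
    · simp [hxa, hya]
    · simp [hxb, hyb]
  inv_mem' := by
    rintro x ⟨hx, hxa, hxb⟩
    refine ⟨fun t => Z.inv_mem (hx _), ?_, ?_⟩
    · simp [hxa]
    · simp [hxb]

theorem mem_zz {Z : Subgroup H} [hZ : Z.Normal] {x : Wr H p} :
    x ∈ zz Z ↔ (∀ t, x.k t ∈ Z) ∧ x.a = 0 ∧ x.b = 0 := Iff.rfl

instance zz_normal (Z : Subgroup H) [hZ : Z.Normal] : (zz (p := p) Z).Normal := by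
  refine ⟨?_⟩
  rintro x ⟨hx, hxa, hxb⟩ g
  refine ⟨fun t => ?_, ?_, ?_⟩
  · simp only [mul_k, inv_k, mul_a, hxa, add_zero, sub_add_cancel]
    exact hZ.conj_mem _ (hx _) _
  · simp [hxa]
  · simp [hxb]

variable [NeZero p]

/-- the new linear character -/
noncomputable def ll (l : H → ℂ) (x : Wr H p) : ℂ := (∏ t, l (x.k t)) * ZMod.stdAddChar x.c

end Wr

/-- the inductive assertion -/
def Good (G : Type u) [Group G] (m : ℕ) : Prop :=
  ∃ (H : Type u) (_ : Group H) (_ : Finite H) (Z : Subgroup H) (_ : Z.Normal) (l : H → ℂ),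
    (∀ z ∈ Z, ∀ w ∈ Z, l (z * w) = l z * l w) ∧ (∀ h : H, ∀ z ∈ Z, l (h * z * h⁻¹) = l z) ∧
    (∀ h ∉ Z, ∃ g : H, ∃ z ∈ Z, l z ≠ 1 ∧ h * g = g * (h * z)) ∧
    (∃ f : G →* H ⧸ Z, Function.Injective f) ∧
    (∀ q : ℕ, q.Prime → q ∣ Nat.card H → q ∣ Nat.card G) ∧
    (∀ z ∈ Z, l z ^ m = 1) ∧
    (∀ q : ℕ, q.Prime → q ∣ Nat.card G → ∃ z ∈ Z, l z ≠ 1 ∧ l z ^ q = 1)

theorem good_of_subsingleton (G : Type u) [Group G] [Subsingleton G] (m : ℕ) : Good G m := by
  refine ⟨G, inferInstance, inferInstance, ⊤, inferInstance, fun _ => 1, ?_, ?_, ?_, ?_, ?_, ?_, ?_⟩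
  · intros; simp
  · intros; rfl
  · intro h hh
    exact absurd (Subgroup.mem_top h) hh
  · exact ⟨1, fun a b _ => Subsingleton.elim a b⟩
  · exact fun q _ h => h
  · intros; simp
  · intro q hq h
    rw [Nat.card_unique] at h
    exact absurd (Nat.dvd_one.1 h) hq.ne_one

theorem good_step {G : Type u} [Group G] [Finite G] {p : ℕ} [hp : Fact p.Prime] {m : ℕ} (hpm : p ∣ m) (hm : m ≠ 0)
    (π : G →* Multiplicative (ZMod p)) (hπ : Function.Surjective π) (h : Good π.ker m) : Good G m := by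
  classical
  obtain ⟨H, _, _, Z, hZ, l, hmul, hconj, hnd, ⟨f, hf⟩, hpr, hlm, hq⟩ := h
  haveI : NeZero p := ⟨hp.1.ne_zero⟩
  have l1 : l 1 = 1 := by
    have h1 := hmul 1 Z.one_mem 1 Z.one_mem
    rw [mul_one] at h1
    have h2 : l 1 ≠ 0 := by
      intro h0
      have := hlm 1 Z.one_mem
      rw [h0, zero_pow hm] at this
      exact zero_ne_one this
    exact (mul_eq_left₀ h2).1 h1.symm
  have linv : ∀ z ∈ Z, l z⁻¹ * l z = 1 := by
    intro z hz
    rw [← hmul _ (Z.inv_mem hz) _ hz, inv_mul_cancel, l1]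
  have lprod_shift : ∀ (k : ZMod p → H) (a : ZMod p), ∏ t, l (k (t - a)) = ∏ t, l (k t) := fun k a =>
    Fintype.prod_equiv (Equiv.subRight a) _ _ fun t => rfl
  have hcard : Nat.card G = p * Nat.card π.ker := by
    rw [← Subgroup.index_mul_card π.ker, Subgroup.index_ker, MonoidHom.range_eq_top.2 hπ]
    congr 1
    rw [Nat.card_congr Subgroup.topEquiv.toEquiv]
    simp [Nat.card_zmod]
  refine ⟨Wr H p, inferInstance, inferInstance, Wr.zz Z, inferInstance, Wr.ll l, ?_, ?_, ?_, ?_, ?_, ?_, ?_⟩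
  · rintro z ⟨hz, hza, hzb⟩ w ⟨hw, hwa, hwb⟩
    have h1 : ∀ t, l ((z * w).k t) = l (z.k t) * l (w.k t) := by
      intro t
      rw [Wr.mul_k, hza, sub_zero]
      exact hmul _ (hz t) _ (hw t)
    simp only [Wr.ll, h1, Finset.prod_mul_distrib, Wr.mul_c, hza, zero_mul, add_zero, AddChar.map_add_eq_mul]
    ring
  · rintro h z ⟨hz, hza, hzb⟩
    have h1 : ∀ t, l ((h * z * h⁻¹).k t) = l (z.k (t - h.a)) := by
      intro t
      have h2 : (h * z * h⁻¹).k t = h.k t * z.k (t - h.a) * (h.k t)⁻¹ := by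
        simp [hza]
      rw [h2]
      exact hconj _ _ (hz _)
    have h3 : (h * z * h⁻¹).c = z.c := by
      simp only [Wr.mul_c, Wr.inv_c, Wr.mul_a, Wr.inv_b, hza, hzb]
      ring
    simp only [Wr.ll, h1, h3]
    rw [lprod_shift z.k h.a]
  · intro h hh
    by_cases ha : h.a = 0
    · by_cases hk : ∀ t, h.k t ∈ Z
      · have hb : h.b ≠ 0 := fun hb => hh ⟨hk, ha, hb⟩
        refine ⟨⟨fun _ => 1, 1, 0, 0⟩, ⟨fun t => (h.k t)⁻¹ * h.k (t + 1), 0, 0, -h.b⟩, ?_, ?_, ?_⟩
        · exact ⟨fun t => Z.mul_mem (Z.inv_mem (hk _)) (hk _), rfl, rfl⟩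
        · have h1 : ∀ t, l ((h.k t)⁻¹ * h.k (t + 1)) = l (h.k t)⁻¹ * l (h.k (t + 1)) := fun t =>
            hmul _ (Z.inv_mem (hk _)) _ (hk _)
          have h2 : ∏ t, l (h.k (t + 1)) = ∏ t, l (h.k t) :=
            Fintype.prod_equiv (Equiv.addRight (1 : ZMod p)) _ _ fun t => rfl
          have h3 : (∏ t, l (h.k t)⁻¹) * ∏ t, l (h.k t) = 1 := by
            rw [← Finset.prod_mul_distrib]
            exact Finset.prod_eq_one fun t _ => linv _ (hk t)
          simp only [Wr.ll, h1, Finset.prod_mul_distrib, h2, h3, one_mul]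
          intro h4
          rw [← AddChar.map_zero_eq_one (ZMod.stdAddChar (N := p))] at h4
          have := ZMod.injective_stdAddChar h4
          exact hb (neg_eq_zero.1 this)
        · ext
          · rename_i t
            simp [ha]
          · simp [ha]
          · simp
          · simp [ha]
      · push Not at hk
        obtain ⟨t0, ht0⟩ := hk
        obtain ⟨g, z, hz, hz1, hgz⟩ := hnd _ ht0
        refine ⟨⟨Pi.mulSingle t0 g, 0, 0, 0⟩, ⟨Pi.mulSingle t0 z, 0, 0, 0⟩, ?_, ?_, ?_⟩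
        · refine ⟨fun t => ?_, rfl, rfl⟩
          by_cases ht : t = t0
          · subst ht
            simpa using hz
          · simp [Pi.mulSingle_eq_of_ne ht, Z.one_mem]
        · have h1 : ∏ t, l ((Pi.mulSingle t0 z : ZMod p → H) t) = l z := by
            rw [Finset.prod_eq_single t0]
            · simp
            · intro t _ ht
              rw [Pi.mulSingle_eq_of_ne ht, l1]
            · intro h; exact absurd (Finset.mem_univ _) h
          simp only [Wr.ll, h1, AddChar.map_zero_eq_one, mul_one]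
          exact hz1
        · ext
          · rename_i t
            by_cases ht : t = t0
            · subst ht
              simp [ha, hgz]
            · simp [ha, Pi.mulSingle_eq_of_ne ht]
          · simp [ha]
          · simp
          · simp [ha]
    · refine ⟨⟨fun _ => 1, 0, 1, 0⟩, ⟨fun _ => 1, 0, 0, h.a⟩, ?_, ?_, ?_⟩
      · exact ⟨fun t => Z.one_mem, rfl, rfl⟩
      · simp only [Wr.ll, l1, Finset.prod_const_one, one_mul]
        intro h4
        rw [← AddChar.map_zero_eq_one (ZMod.stdAddChar (N := p))] at h4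
        exact ha (ZMod.injective_stdAddChar h4)
      · ext
        · simp
        · simp
        · simp [add_comm]
        · simp
  · -- the embedding
    let s : ZMod p → G := fun x => (hπ (Multiplicative.ofAdd x)).choose
    have hs : ∀ x, π (s x) = Multiplicative.ofAdd x := fun x => (hπ (Multiplicative.ofAdd x)).choose_spec
    let a : G → ZMod p := fun g => Multiplicative.toAdd (π g)
    have ha : ∀ g h, a (g * h) = a g + a h := fun g h => by simp [a, map_mul]
    have hker : ∀ (g : G) (x : ZMod p), (s x)⁻¹ * g * s (x - a g) ∈ π.ker := by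
      intro g x
      rw [MonoidHom.mem_ker, map_mul, map_mul, map_inv, hs, hs]
      apply Multiplicative.toAdd.injective
      simp [a]
    let φ : G → ZMod p → π.ker := fun g x => ⟨_, hker g x⟩
    have hφ : ∀ g h x, φ (g * h) x = φ g x * φ h (x - a g) := by
      intro g h x
      apply Subtype.ext
      simp only [φ, Subgroup.coe_mul, ha]
      rw [sub_add_eq_sub_sub]
      group
    have hmk : ∀ x y : Wr H p, (∀ t, (QuotientGroup.mk (x.k t) : H ⧸ Z) = QuotientGroup.mk (y.k t)) → x.a = y.a →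
        x.b = y.b → (QuotientGroup.mk x : Wr H p ⧸ Wr.zz (p := p) Z) = QuotientGroup.mk y := by
      intro x y hk ha hb
      rw [QuotientGroup.eq]
      refine ⟨fun t => ?_, ?_, ?_⟩
      · have := QuotientGroup.eq.1 (hk (t + x.a))
        simpa using this
      · simp [ha]
      · simp [hb]
    let k : G → ZMod p → H := fun g x => (f (φ g x)).out
    have hk : ∀ g x, (QuotientGroup.mk (k g x) : H ⧸ Z) = f (φ g x) := fun g x => Quotient.out_eq' _
    refine ⟨MonoidHom.mk' (fun g => (QuotientGroup.mk (⟨k g, a g, 0, 0⟩ : Wr H p))) ?_, ?_⟩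
    · intro g h
      show _ = (QuotientGroup.mk ((⟨k g, a g, 0, 0⟩ : Wr H p) * ⟨k h, a h, 0, 0⟩) : Wr H p ⧸ Wr.zz (p := p) Z)
      apply hmk
      · intro t
        show (QuotientGroup.mk (k (g * h) t) : H ⧸ Z) = QuotientGroup.mk (k g t * k h (t - a g))
        rw [QuotientGroup.mk_mul, hk, hk, hk, hφ, map_mul]
      · exact ha g h
      · simp
    · rw [injective_iff_map_eq_one]
      intro g hg
      have hg' : (⟨k g, a g, 0, 0⟩ : Wr H p) ∈ Wr.zz (p := p) Z := (QuotientGroup.eq_one_iff _).1 hg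
      obtain ⟨h1, h2, h3⟩ := hg'
      have h4 : f (φ g 0) = 1 := by
        rw [← hk]
        exact (QuotientGroup.eq_one_iff _).2 (h1 0)
      have h5 : φ g 0 = 1 := hf (by rw [h4, map_one])
      have h6 := congrArg Subtype.val h5
      simp only [φ, Subgroup.coe_one] at h6
      have h7 : a g = 0 := h2
      rw [h7, sub_zero] at h6
      calc g = s 0 * ((s 0)⁻¹ * g * s 0) * (s 0)⁻¹ := by group
        _ = 1 := by rw [h6]; group
  · intro q hqp hqd
    rw [Wr.card_eq] at hqd
    rw [hcard]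
    rcases hqp.dvd_mul.1 hqd with h | h
    · exact Dvd.dvd.mul_left (hpr q hqp (hqp.dvd_of_dvd_pow h)) _
    · have : q ∣ p := by
        rcases hqp.dvd_mul.1 h with h | h
        · exact h
        · rcases hqp.dvd_mul.1 h with h | h <;> exact h
      exact Dvd.dvd.mul_right this _
  · rintro z ⟨hz, hza, hzb⟩
    rw [Wr.ll, mul_pow, ← Finset.prod_pow, Finset.prod_eq_one fun t _ => hlm _ (hz t), one_mul,
      ← AddChar.map_nsmul_eq_pow]
    obtain ⟨m', rfl⟩ := hpm
    have : (p * m') • z.c = 0 := by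
      rw [nsmul_eq_mul]
      push_cast
      simp
    rw [this, AddChar.map_zero_eq_one]
  · intro q hqp hqd
    rw [hcard] at hqd
    rcases hqp.dvd_mul.1 hqd with h | h
    · have hqp' : q = p := (Nat.prime_dvd_prime_iff_eq hqp hp.1).1 h
      subst hqp'
      refine ⟨⟨fun _ => 1, 0, 0, 1⟩, ⟨fun _ => Z.one_mem, rfl, rfl⟩, ?_, ?_⟩
      · simp only [Wr.ll, l1, Finset.prod_const_one, one_mul]
        intro h4
        rw [← AddChar.map_zero_eq_one (ZMod.stdAddChar (N := q))] at h4
        have := ZMod.injective_stdAddChar h4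
        exact one_ne_zero this
      · simp only [Wr.ll, l1, Finset.prod_const_one, one_mul]
        rw [← AddChar.map_nsmul_eq_pow]
        simp
    · obtain ⟨z, hz, hz1, hzq⟩ := hq q hqp h
      have h1 : ∏ t, l ((Pi.mulSingle 0 z : ZMod p → H) t) = l z := by
        rw [Finset.prod_eq_single 0]
        · simp
        · intro t _ ht
          rw [Pi.mulSingle_eq_of_ne ht, l1]
        · intro h; exact absurd (Finset.mem_univ _) h
      refine ⟨⟨Pi.mulSingle 0 z, 0, 0, 0⟩, ?_, ?_, ?_⟩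
      · refine ⟨fun t => ?_, rfl, rfl⟩
        by_cases ht : t = 0
        · subst ht
          simpa using hz
        · simp [Pi.mulSingle_eq_of_ne ht, Z.one_mem]
      · simp only [Wr.ll, h1, AddChar.map_zero_eq_one, mul_one]
        exact hz1
      · simp only [Wr.ll, h1, AddChar.map_zero_eq_one, mul_one]
        exact hzq

theorem good_of_solvable {m : ℕ} (hm : m ≠ 0) (n : ℕ) : ∀ (G : Type u) [Group G] [Finite G], Nat.card G = n →
    Group.IsSolvable G → (∀ q : ℕ, q.Prime → q ∣ Nat.card G → q ∣ m) → Good G m := by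
  induction n using Nat.strong_induction_on with
  | _ n ih =>
  intro G _ _ hn hs hq
  rcases subsingleton_or_nontrivial G with h | h
  · exact good_of_subsingleton G m
  · obtain ⟨p, hp, π, hπ⟩ := exists_surj G hs
    haveI : Fact p.Prime := ⟨hp⟩
    have hcard : Nat.card G = p * Nat.card π.ker := by
      rw [← Subgroup.index_mul_card π.ker, Subgroup.index_ker, MonoidHom.range_eq_top.2 hπ]
      congr 1
      rw [Nat.card_congr Subgroup.topEquiv.toEquiv]
      simp [Nat.card_zmod]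
    have hpos : 0 < Nat.card π.ker := Nat.card_pos
    refine good_step (p := p) (hq p hp ⟨_, hcard⟩) hm π hπ (ih (Nat.card π.ker) ?_ π.ker rfl inferInstance ?_)
    · rw [← hn, hcard]
      have := hp.two_le
      nlinarith
    · intro q hqp hqd
      exact hq q hqp (hqd.trans ⟨p, by rw [hcard, mul_comm]⟩)

theorem squarefree_prod (n : ℕ) : Squarefree (∏ q ∈ n.primeFactors, q) := by
  have : ∀ s : Finset ℕ, (∀ q ∈ s, q.Prime) → Squarefree (∏ q ∈ s, q) := by
    intro s
    induction s using Finset.induction_on with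
    | empty => intro _; simp
    | insert a s ha ih =>
      intro h
      rw [Finset.prod_insert ha]
      rw [Nat.squarefree_mul]
      · exact ⟨(h a (Finset.mem_insert_self a s)).prime.squarefree, ih fun q hq => h q (Finset.mem_insert_of_mem hq)⟩
      · refine Nat.Coprime.prod_right fun q hq => ?_
        refine (Nat.coprime_primes (h a (Finset.mem_insert_self a s)) (h q (Finset.mem_insert_of_mem hq))).2 ?_
        rintro rfl
        exact ha hq
  exact this _ fun q hq => Nat.prime_of_mem_primeFactors hq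

open Cfsg Cfsg.Agent.Lib.CharBasic Cfsg.Agent.Lib.Clifford in
theorem final {G : Type u} [Group G] [Finite G] {m : ℕ} (hm : m ≠ 0) (hsf : Squarefree m) (h : Good G m) :
    ∃ (H : Type u) (_ : Group H) (_ : Finite H) (χ : Cfsg.IrrCharacter H),
      (∀ h : H, (χ : H → ℂ) h = (χ : H → ℂ) 1 → h = 1) ∧
      (Cfsg.charDegree (χ : H → ℂ)) ^ 2 = (Subgroup.center H).index ∧
      (∃ f : G →* H ⧸ Subgroup.center H, Function.Injective f) ∧
      (∀ p : ℕ, p.Prime → ((p ∣ Nat.card H ↔ p ∣ Nat.card G) ∧ (p ∣ Nat.card (Subgroup.center H) ↔ p ∣ Nat.card G))) ∧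
      Squarefree (Nat.card (Subgroup.center H)) := by
  classical
  obtain ⟨H, _, _, Z, hZ, l, hmul, hconj, hnd, ⟨f, hf⟩, hpr, hlm, hq⟩ := h
  have := Fintype.ofFinite H
  have l1 : l 1 = 1 := by
    have h1 := hmul 1 Z.one_mem 1 Z.one_mem
    rw [mul_one] at h1
    have h2 : l 1 ≠ 0 := by
      intro h0
      have := hlm 1 Z.one_mem
      rw [h0, zero_pow hm] at this
      exact zero_ne_one this
    exact (mul_eq_left₀ h2).1 h1.symm
  have linv : ∀ z ∈ Z, l z⁻¹ * l z = 1 := by
    intro z hz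
    rw [← hmul _ (Z.inv_mem hz) _ hz, inv_mul_cancel, l1]
  have lne : ∀ z ∈ Z, l z ≠ 0 := fun z hz h0 => by
    have := linv z hz
    rw [h0, mul_zero] at this
    exact zero_ne_one this
  let r : Z →* ℂˣ := MonoidHom.mk' (fun z => Units.mk0 (l z) (lne z z.2)) fun a b => by
    apply Units.ext
    simpa using hmul a a.2 b b.2
  have hr : ∀ z : Z, ((r z : ℂˣ) : ℂ) = l z := fun z => rfl
  let K : Subgroup H :=
    { carrier := {z | z ∈ Z ∧ l z = 1}
      one_mem' := ⟨Z.one_mem, l1⟩
      mul_mem' := by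
        rintro a b ⟨ha, ha1⟩ ⟨hb, hb1⟩
        exact ⟨Z.mul_mem ha hb, by rw [hmul a ha b hb, ha1, hb1, mul_one]⟩
      inv_mem' := by
        rintro a ⟨ha, ha1⟩
        have := linv a ha
        rw [ha1, mul_one] at this
        exact ⟨Z.inv_mem ha, this⟩ }
  have hKmem : ∀ x, x ∈ K ↔ x ∈ Z ∧ l x = 1 := fun x => Iff.rfl
  have hKZ : K ≤ Z := fun x hx => hx.1
  haveI hKn : K.Normal := ⟨fun n hn g => ⟨hZ.conj_mem n hn.1 g, by rw [hconj g n hn.1]; exact hn.2⟩⟩
  -- the character
  have hθ : IsIrrCharacter Z (fun z : Z => l z) := isIrrCharacter_of_unitsHom r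
  obtain ⟨χ, hχ⟩ := DegTools.exists_over Z hθ
  have hinv : ∀ g : H, cj Z g (fun z : Z => l z) = fun z : Z => l z := by
    intro g
    funext z
    rw [cj_apply]
    exact hconj g z z.2
  have hres := res_eq_smul_of_invariant χ.2 hθ hinv hχ
  have hres' : ∀ z ∈ Z, (χ : H → ℂ) z = (χ : H → ℂ) 1 * l z := by
    intro z hz
    have h1 := congrFun hres ⟨z, hz⟩
    have h2 := congrFun hres ⟨1, Z.one_mem⟩
    simp only [Pi.smul_apply, smul_eq_mul] at h1 h2
    rw [l1, mul_one] at h2
    rw [h1, h2]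
  have hχ1 : (χ : H → ℂ) 1 ≠ 0 := χ.2.one_ne_zero
  obtain ⟨ψ, hψ, hψχ⟩ := χ.2.deflate K (fun n hn => by rw [hres' n hn.1, hn.2, mul_one])
  have hcent : ∀ z ∈ Z, ∀ y : H ⧸ K, Commute (QuotientGroup.mk z : H ⧸ K) y := by
    intro z hz y
    obtain ⟨g, rfl⟩ := QuotientGroup.mk_surjective y
    show (QuotientGroup.mk z : H ⧸ K) * QuotientGroup.mk g = QuotientGroup.mk g * QuotientGroup.mk z
    rw [← QuotientGroup.mk_mul, ← QuotientGroup.mk_mul, QuotientGroup.eq]
    have h1 : (z * g)⁻¹ * (g * z) = g⁻¹ * (z⁻¹ * (g * z * g⁻¹)) * g⁻¹⁻¹ := by group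
    rw [h1]
    have h2 : g * z * g⁻¹ ∈ Z := hZ.conj_mem z hz g
    refine ⟨hZ.conj_mem _ (Z.mul_mem (Z.inv_mem hz) h2) _, ?_⟩
    rw [hconj _ _ (Z.mul_mem (Z.inv_mem hz) h2), hmul _ (Z.inv_mem hz) _ h2, hconj g z hz, linv z hz]
  have hψmul : ∀ z ∈ Z, ∀ y : H ⧸ K, ψ ((QuotientGroup.mk z : H ⧸ K) * y) = l z * ψ y := by
    intro z hz y
    have h1 := AbSec.irr_central_mul ⟨ψ, hψ⟩ (hcent z hz)
    have h2 := h1 1
    have h3 := h1 y
    simp only at h2 h3
    rw [mul_one, hψχ] at h2
    have h4 : ψ 1 = (χ : H → ℂ) 1 := by rw [← hψχ]; rfl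
    rw [h4, hres' z hz, mul_comm] at h2
    rw [h3, ← mul_right_cancel₀ hχ1 h2]
  have hvan : ∀ g : H, g ∉ Z → (χ : H → ℂ) g = 0 := by
    intro h hh
    obtain ⟨g, z, hz, hz1, hg⟩ := hnd h hh
    have h1 : (χ : H → ℂ) h = (χ : H → ℂ) (h * z) := by
      have h2 := χ.2.isClassFunction (h * z) g
      rw [← hg, mul_inv_cancel_right] at h2
      exact h2
    have h3 : (χ : H → ℂ) (h * z) = l z * (χ : H → ℂ) h := by
      rw [χ.2.isClassFunction.mul_comm, ← hψχ, ← hψχ, QuotientGroup.mk_mul, hψmul z hz]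
    rw [h3] at h1
    have h4 : (1 - l z) * (χ : H → ℂ) h = 0 := by linear_combination h1
    rcases mul_eq_zero.1 h4 with h5 | h5
    · exact absurd (sub_eq_zero.1 h5).symm hz1
    · exact h5
  have hcen : Subgroup.center (H ⧸ K) = Z.map (QuotientGroup.mk' K) := by
    apply le_antisymm
    · intro y hy
      obtain ⟨g, rfl⟩ := QuotientGroup.mk_surjective y
      by_contra hcon
      have hg : g ∉ Z := fun hg => hcon ⟨g, hg, rfl⟩
      obtain ⟨x, z, hz, hz1, hgx⟩ := hnd g hg
      apply hz1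
      have h1 := Subgroup.mem_center_iff.1 hy (QuotientGroup.mk x)
      have h2 := congrArg (QuotientGroup.mk (s := K)) hgx
      rw [QuotientGroup.mk_mul, QuotientGroup.mk_mul, QuotientGroup.mk_mul, ← mul_assoc, h1] at h2
      have h3 : (QuotientGroup.mk z : H ⧸ K) = 1 := (mul_eq_left.1 h2.symm)
      exact ((QuotientGroup.eq_one_iff z).1 h3).2
    · rintro _ ⟨z, hz, rfl⟩
      rw [Subgroup.mem_center_iff]
      intro y
      exact (hcent z hz y).eq.symm
  obtain ⟨e, he1, he2⟩ := ((CliffordCorr.fully_ramified_iff χ.2 hθ hχ).1).2 ⟨hvan, hinv⟩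
  have he : (χ : H → ℂ) 1 = e := by
    have h2 := congrFun he1 ⟨1, Z.one_mem⟩
    simp only [Pi.smul_apply, smul_eq_mul] at h2
    rw [l1, mul_one] at h2
    exact h2
  have hindex : (Z.map (QuotientGroup.mk' K)).index = Z.index := by
    apply Subgroup.index_map_eq Z (QuotientGroup.mk'_surjective K)
    rw [QuotientGroup.ker_mk']
    exact hKZ
  have hψ1 : ψ 1 = (χ : H → ℂ) 1 := by rw [← hψχ]; rfl
  have hcardc : Nat.card (Subgroup.center (H ⧸ K)) = Nat.card r.range := by
    rw [hcen, ← Subgroup.index_ker r]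
    have h1 : Z.map (QuotientGroup.mk' K) = ((QuotientGroup.mk' K).comp Z.subtype).range := by
      rw [MonoidHom.range_comp, Subgroup.range_subtype]
    rw [h1, ← Subgroup.index_ker]
    congr 1
    ext z
    rw [MonoidHom.mem_ker, MonoidHom.mem_ker, MonoidHom.comp_apply, QuotientGroup.mk'_apply,
      QuotientGroup.eq_one_iff]
    constructor
    · intro hz
      apply Units.ext
      rw [hr]
      exact hz.2
    · intro hz
      refine ⟨z.2, ?_⟩
      have := congrArg (Units.val) hz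
      rwa [hr] at this
  have hdvdm : Nat.card (Subgroup.center (H ⧸ K)) ∣ m := by
    rw [hcardc]
    haveI : NeZero m := ⟨hm⟩
    have h1 : r.range ≤ rootsOfUnity m ℂ := by
      rintro _ ⟨z, rfl⟩
      rw [mem_rootsOfUnity]
      apply Units.ext
      rw [Units.val_pow_eq_pow_val, hr]
      exact hlm z z.2
    have h2 := Subgroup.card_dvd_of_le h1
    rwa [Complex.card_rootsOfUnity] at h2
  have hprc : ∀ q : ℕ, q.Prime → q ∣ Nat.card G → q ∣ Nat.card (Subgroup.center (H ⧸ K)) := by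
    intro q hqp hqd
    obtain ⟨z, hz, hz1, hzq⟩ := hq q hqp hqd
    rw [hcardc]
    haveI : Fact q.Prime := ⟨hqp⟩
    have h1 : orderOf (r ⟨z, hz⟩) = q := by
      apply orderOf_eq_prime
      · apply Units.ext
        rw [Units.val_pow_eq_pow_val, hr]
        exact hzq
      · intro h
        apply hz1
        have := congrArg (Units.val) h
        rwa [hr] at this
    have h2 : orderOf (⟨r ⟨z, hz⟩, ⟨_, rfl⟩⟩ : r.range) = q := by
      rw [← h1]
      exact (Subgroup.orderOf_mk _ _)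
    rw [← h2]
    exact orderOf_dvd_natCard _
  have hcard1 : ∀ q : ℕ, q ∣ Nat.card (H ⧸ K) → q ∣ Nat.card H := fun q h => h.trans (Subgroup.card_quotient_dvd_card K)
  refine ⟨H ⧸ K, inferInstance, inferInstance, ⟨ψ, hψ⟩, ?_, ?_, ?_, ?_, ?_⟩
  · intro y hy
    obtain ⟨g, rfl⟩ := QuotientGroup.mk_surjective y
    simp only at hy
    rw [hψχ, hψ1] at hy
    have hg : g ∈ Z := by
      by_contra hg
      rw [hvan g hg] at hy
      exact hχ1 hy.symm
    rw [hres' g hg] at hy
    have h5 : l g = 1 := by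
      have := mul_left_cancel₀ hχ1 (hy.trans (mul_one _).symm)
      exact this
    exact (QuotientGroup.eq_one_iff g).2 ⟨hg, h5⟩
  · rw [hcen, hindex, ← he2]
    congr 1
    have h1 := DefectZero.charDegree_eq hψ.isCharacter
    simp only
    have h2 : ((charDegree ψ : ℕ) : ℂ) = e := by rw [h1, hψ1, he]
    exact_mod_cast h2
  · have e1 : (H ⧸ Z) ≃* ((H ⧸ K) ⧸ Z.map (QuotientGroup.mk' K)) :=
      (QuotientGroup.quotientQuotientEquivQuotient K Z hKZ).symm
    have e2 : ((H ⧸ K) ⧸ Z.map (QuotientGroup.mk' K)) ≃* ((H ⧸ K) ⧸ Subgroup.center (H ⧸ K)) :=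
      QuotientGroup.quotientMulEquivOfEq hcen.symm
    exact ⟨e2.toMonoidHom.comp (e1.toMonoidHom.comp f), e2.injective.comp (e1.injective.comp hf)⟩
  · intro q hqp
    refine ⟨⟨fun h => hpr q hqp (hcard1 q h), fun h => (hprc q hqp h).trans (Subgroup.card_subgroup_dvd_card _)⟩,
      ⟨fun h => hpr q hqp (hcard1 q (h.trans (Subgroup.card_subgroup_dvd_card _))), fun h => hprc q hqp h⟩⟩
  · exact hsf.squarefree_of_dvd hdvdm

end Cfsg.Agent.Lib.CentralTypeEmb
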