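import Cfsg.Agent.Lib.CharTriple
import Cfsg.Agent.Lib.ExtraChar
import Cfsg.Agent.Lib.CharApps
import Cfsg.Agent.S4449

set_option autoImplicit false
set_option linter.unusedSectionVars false
set_option linter.style.haveILetI false

/-!
# Invariant characters over a central character (helper74)
-/

namespace Cfsg.Agent.Lib.CharTriple

open scoped ComplexConjugate commutatorElement
open Cfsg Cfsg.Agent.Lib.CharBasic Cfsg.Agent.Lib.Clifford

universe u

theorem exists_split (n : ℕ) (m : ℕ) : 0 < m → ∃ a b : ℕ, m = a * b ∧ b.Coprime n ∧ ∀ p : ℕ, p.Prime → p ∣ a → p ∣ n := by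
  induction m using Nat.strong_induction_on with
  | _ m ih =>
  intro hm
  by_cases hg : Nat.gcd m n = 1
  · exact ⟨1, m, (one_mul m).symm, hg, fun p hp h => absurd (Nat.dvd_one.1 h) hp.ne_one⟩
  · obtain ⟨m', hm'⟩ := Nat.gcd_dvd_left m n
    have hg0 : 0 < Nat.gcd m n := Nat.gcd_pos_of_pos_left n hm
    have hm'0 : 0 < m' := by
      rcases Nat.eq_zero_or_pos m' with h | h
      · rw [h, mul_zero] at hm'; omega
      · exact h
    have hlt : m' < m := by
      conv_rhs => rw [hm']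
      exact lt_mul_of_one_lt_left hm'0 (by omega)
    obtain ⟨a, b, h1, h2, h3⟩ := ih m' hlt hm'0
    refine ⟨Nat.gcd m n * a, b, ?_, h2, ?_⟩
    · rw [mul_assoc, ← h1]; exact hm'
    · intro p hp h
      rcases hp.dvd_mul.1 h with h | h
      · exact h.trans (Nat.gcd_dvd_right m n)
      · exact h3 p hp h

theorem exists_hall {Y : Type u} [Group Y] [Finite Y] (Z X : Subgroup Y) [hX : X.Normal] (hZX : Z ≤ X)
    (hZ : ∀ z ∈ Z, ∀ y, z * y = y * z) (n : ℕ) (hcop : (Z.relIndex X).Coprime n) :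
    ∃ K Zp : Subgroup Y, K.Normal ∧ K ≤ X ∧ Zp ≤ Z ∧ K ⊓ Zp = ⊥ ∧ K ⊔ Zp = X ∧ (Nat.card K).Coprime n ∧
      ∀ p : ℕ, p.Prime → p ∣ Nat.card Zp → p ∣ n := by
  obtain ⟨a, b, hab, hb, ha⟩ := exists_split n (Nat.card Z) Nat.card_pos
  let Zp : Subgroup Y :=
    { carrier := {z | z ∈ Z ∧ z ^ a = 1}
      mul_mem' := fun {x y} hx hy => ⟨Z.mul_mem hx.1 hy.1, by
        have h1 : Commute x y := hZ x hx.1 y
        rw [h1.mul_pow, hx.2, hy.2, one_mul]⟩
      one_mem' := ⟨Z.one_mem, one_pow a⟩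
      inv_mem' := fun {x} hx => ⟨Z.inv_mem hx.1, by rw [inv_pow, hx.2, inv_one]⟩ }
  have hZpZ : Zp ≤ Z := fun z hz => hz.1
  have hZpX : Zp ≤ X := hZpZ.trans hZX
  have hZpc : ∀ z ∈ Zp, ∀ y, z * y = y * z := fun z hz => hZ z hz.1
  have hpr : ∀ p : ℕ, p.Prime → p ∣ Nat.card Zp → p ∣ n := by
    intro p hp h
    haveI : Fact p.Prime := ⟨hp⟩
    obtain ⟨⟨z, hz⟩, hz'⟩ := exists_prime_orderOf_dvd_card' p h
    have h1 : (⟨z, hz⟩ : Zp) ^ a = 1 := Subtype.ext hz.2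
    have h2 := orderOf_dvd_of_pow_eq_one h1
    rw [hz'] at h2
    exact ha p hp h2
  have hc1 : (Zp.relIndex Z).Coprime n := by
    apply Nat.coprime_of_dvd
    intro p hp h1 h2
    haveI : Fact p.Prime := ⟨hp⟩
    have hn : (Zp.subgroupOf Z).Normal := ⟨fun x hx y => by
      have : y * x * y⁻¹ = x := by
        apply Subtype.ext
        have := hZ x x.2 (y : Y)
        show (y : Y) * x * (y : Y)⁻¹ = x
        rw [← this, mul_inv_cancel_right]
      rw [this]; exact hx⟩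
    have h1' : p ∣ Nat.card (Z ⧸ Zp.subgroupOf Z) := h1
    obtain ⟨q, hq⟩ := exists_prime_orderOf_dvd_card' p h1'
    obtain ⟨z, rfl⟩ := QuotientGroup.mk_surjective q
    have h3 : ((z : Z) : Z ⧸ Zp.subgroupOf Z) ^ b = 1 := by
      rw [← QuotientGroup.mk_pow, QuotientGroup.eq_one_iff, Subgroup.mem_subgroupOf]
      refine ⟨(z ^ b).2, ?_⟩
      have h4 : (z ^ b) ^ a = 1 := by
        rw [← pow_mul, mul_comm, ← hab, pow_card_eq_one']
      exact congrArg Subtype.val h4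
    have h4 := orderOf_dvd_of_pow_eq_one h3
    rw [hq] at h4
    exact hp.one_lt.ne' (Nat.eq_one_of_dvd_coprimes hb h4 h2)
  have hmul : Zp.relIndex Z * Z.relIndex X = Zp.relIndex X := Subgroup.relIndex_mul_relIndex Zp Z X hZpZ hZX
  have hc2 : (Zp.relIndex X).Coprime n := by
    rw [← hmul]; exact hc1.mul_left hcop
  have hc3 : (Nat.card Zp).Coprime (Zp.relIndex X) := by
    apply Nat.coprime_of_dvd
    intro p hp h1 h2
    exact hp.one_lt.ne' (Nat.eq_one_of_dvd_coprimes hc2 h2 (hpr p hp h1))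
  have hnN : (Zp.subgroupOf X).Normal := ⟨fun x hx y => by
      have : y * x * y⁻¹ = x := by
        apply Subtype.ext
        have := hZpc x hx (y : Y)
        show (y : Y) * x * (y : Y)⁻¹ = x
        rw [← this, mul_inv_cancel_right]
      rw [this]; exact hx⟩
  obtain ⟨H, hH⟩ := Subgroup.exists_right_complement'_of_coprime (N := Zp.subgroupOf X) (by
    rw [Nat.card_congr (Subgroup.subgroupOfEquivOfLe hZpX).toEquiv]
    exact hc3)
  have hcH : Nat.card (H.map X.subtype) = Zp.relIndex X := by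
    rw [Subgroup.card_map_of_injective X.subtype_injective]
    exact hH.symm.index_eq_card.symm
  have hdec : ∀ x ∈ X, ∃ z ∈ Zp, ∃ k ∈ H.map X.subtype, x = z * k := by
    intro x hx
    obtain ⟨⟨⟨z, hz⟩, ⟨k, hk⟩⟩, hzk⟩ := (hH.existsUnique ⟨x, hx⟩).exists
    refine ⟨z, hz, k, ⟨k, hk, rfl⟩, ?_⟩
    exact (congrArg Subtype.val hzk).symm
  have hmeet : ∀ z ∈ Zp, z ∈ H.map X.subtype → z = 1 := by
    intro z hz hzK
    have h1 := Subgroup.orderOf_dvd_natCard _ hz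
    have h2 := Subgroup.orderOf_dvd_natCard _ hzK
    rw [hcH] at h2
    exact orderOf_eq_one_iff.1 (Nat.eq_one_of_dvd_coprimes hc3 h1 h2)
  refine ⟨H.map X.subtype, Zp, ?_, ?_, hZpZ, ?_, ?_, ?_, hpr⟩
  · constructor
    intro k hk y
    have hkX : k ∈ X := Subgroup.map_subtype_le H hk
    obtain ⟨z, hz, k', hk', h1⟩ := hdec _ (hX.conj_mem k hkX y)
    have h2 : (y * k * y⁻¹) ^ Nat.card (H.map X.subtype) = 1 := by
      rw [conj_pow]
      have : k ^ Nat.card (H.map X.subtype) = 1 := by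
        have := pow_card_eq_one' (G := H.map X.subtype) (x := ⟨k, hk⟩)
        exact congrArg Subtype.val this
      rw [this, mul_one, mul_inv_cancel]
    have h3 : k' ^ Nat.card (H.map X.subtype) = 1 := by
      have := pow_card_eq_one' (G := H.map X.subtype) (x := ⟨k', hk'⟩)
      exact congrArg Subtype.val this
    have h4 : Commute z k' := hZpc z hz k'
    rw [h1, h4.mul_pow, h3, mul_one] at h2
    have h5 := orderOf_dvd_of_pow_eq_one h2
    rw [hcH] at h5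
    have h6 := Subgroup.orderOf_dvd_natCard _ hz
    have h7 : z = 1 := orderOf_eq_one_iff.1 (Nat.eq_one_of_dvd_coprimes hc3 h6 h5)
    rw [h1, h7, one_mul]
    exact hk'
  · exact Subgroup.map_subtype_le H
  · rw [eq_bot_iff]
    rintro z ⟨h1, h2⟩
    rw [Subgroup.mem_bot]
    exact hmeet z h2 h1
  · apply le_antisymm
    · exact sup_le (Subgroup.map_subtype_le H) hZpX
    · intro x hx
      obtain ⟨z, hz, k, hk, rfl⟩ := hdec x hx
      exact Subgroup.mul_mem _ (Subgroup.mem_sup_right hz) (Subgroup.mem_sup_left hk)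
  · rw [hcH]; exact hc2

/-- the central case -/
theorem central_case {Y : Type u} [Group Y] [Finite Y] (Z X : Subgroup Y) [hX : X.Normal] (hZX : Z ≤ X)
    (hZ : ∀ z ∈ Z, ∀ y, z * y = y * z) (hcop : (Z.relIndex X).Coprime X.index)
    (hsolv : Group.IsSolvable (Y ⧸ X)) (μ : Z →* ℂˣ) :
    ∃ β : X → ℂ, IsIrrCharacter X β ∧ (∀ (y : Y) (x : X), β ⟨y * x * y⁻¹, hX.conj_mem x x.2 y⟩ = β x) ∧
      ∀ (z : Y) (hz : z ∈ Z) (x : X), β (⟨z, hZX hz⟩ * x) = (μ ⟨z, hz⟩ : ℂ) * β x := by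
  classical
  obtain ⟨K, Zp, hKn, hKX, hZpZ, hinf, hsup, hcK, hpr⟩ := exists_hall Z X hZX hZ X.index hcop
  have hZpc : ∀ z ∈ Zp, ∀ y, z * y = y * z := fun z hz => hZ z (hZpZ hz)
  have hdec : ∀ x ∈ X, ∃ z ∈ Zp, ∃ k ∈ K, x = z * k := by
    intro x hx
    rw [← hsup] at hx
    have hx' : x ∈ ((K ⊔ Zp : Subgroup Y) : Set Y) := hx
    rw [Subgroup.normal_mul] at hx'
    obtain ⟨k, hk, z, hz, rfl⟩ := hx'
    exact ⟨z, hz, k, hk, (hZpc z hz k).symm⟩
  -- `K.index` is a `π`-number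
  have hKidx : (Nat.card K).Coprime K.index := by
    have h1 : K.relIndex X * X.index = K.index := Subgroup.relIndex_mul_index hKX
    rw [← h1]
    refine Nat.Coprime.mul_right ?_ hcK
    have h2 : K.relIndex X ∣ Nat.card Zp := by
      rw [← hsup, sup_comm, Subgroup.relIndex_sup_right]
      exact Subgroup.relIndex_dvd_card K Zp
    refine Nat.Coprime.coprime_dvd_right h2 ?_
    apply Nat.coprime_of_dvd
    intro p hp h3 h4
    exact hp.one_lt.ne' (Nat.eq_one_of_dvd_coprimes hcK h3 (hpr p hp h4))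
  obtain ⟨S, hS⟩ := Subgroup.exists_right_complement'_of_coprime hKidx
  have hSc : Nat.card S = K.index := hS.symm.index_eq_card.symm
  have hSK : ∀ x ∈ S, x ∈ K → x = 1 := by
    intro x h1 h2
    have := hS.disjoint
    rw [Subgroup.disjoint_def] at this
    exact this h2 h1
  -- `S` is solvable
  have hSsolv : Group.IsSolvable S := by
    let g : S →* Y ⧸ X := (QuotientGroup.mk' X).comp S.subtype
    let N : Subgroup S := X.subgroupOf S
    have hNs : Group.IsSolvable N := by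
      apply Group.isSolvable_of_comm
      rintro ⟨⟨a, haS⟩, haX⟩ ⟨⟨b, hbS⟩, hbX⟩
      apply Subtype.ext; apply Subtype.ext
      show a * b = b * a
      obtain ⟨z1, hz1, k1, hk1, e1⟩ := hdec a haX
      obtain ⟨z2, hz2, k2, hk2, e2⟩ := hdec b hbX
      have h1 : a * b * a⁻¹ * b⁻¹ = k1 * k2 * k1⁻¹ * k2⁻¹ := by
        rw [e1, e2]
        have c1 := hZpc z1 hz1
        have c2 := hZpc z2 hz2
        calc z1 * k1 * (z2 * k2) * (z1 * k1)⁻¹ * (z2 * k2)⁻¹
            = z1 * (k1 * z2) * k2 * k1⁻¹ * (z1⁻¹ * k2⁻¹) * z2⁻¹ := by group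
          _ = z1 * (z2 * k1) * k2 * k1⁻¹ * (k2⁻¹ * z1⁻¹) * z2⁻¹ := by
            rw [c2 k1]
            have : z1⁻¹ * k2⁻¹ = k2⁻¹ * z1⁻¹ := hZpc z1⁻¹ (Zp.inv_mem hz1) k2⁻¹
            rw [this]
          _ = (z1 * z2) * (k1 * k2 * k1⁻¹ * k2⁻¹) * (z1⁻¹ * z2⁻¹) := by group
          _ = (k1 * k2 * k1⁻¹ * k2⁻¹) * (z1 * z2) * (z1⁻¹ * z2⁻¹) := by
            rw [hZpc (z1 * z2) (Zp.mul_mem hz1 hz2)]
          _ = (k1 * k2 * k1⁻¹ * k2⁻¹) * (z1 * (z2 * z1⁻¹) * z2⁻¹) := by group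
          _ = _ := by rw [c2 z1⁻¹]; group
      have h2 : a * b * a⁻¹ * b⁻¹ = 1 := by
        apply hSK
        · exact S.mul_mem (S.mul_mem (S.mul_mem haS hbS) (S.inv_mem haS)) (S.inv_mem hbS)
        · rw [h1]
          exact K.mul_mem (K.mul_mem (K.mul_mem hk1 hk2) (K.inv_mem hk1)) (K.inv_mem hk2)
      have h3 : a * b * (b * a)⁻¹ = 1 := by rw [mul_inv_rev, ← mul_assoc]; exact h2
      exact mul_inv_eq_one.1 h3
    have hker : g.ker ≤ N.subtype.range := by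
      intro x hx
      rw [Subgroup.range_subtype]
      have : ((x : Y) : Y ⧸ X) = 1 := hx
      rw [QuotientGroup.eq_one_iff] at this
      exact this
    exact Group.isSolvable_of_ker_le_range N.subtype g hker
  -- Glauberman: an invariant character of `K`
  let D : Subgroup Y := Z ⊓ K
  have hDZ : D ≤ Z := inf_le_left
  have hDK : D ≤ K := inf_le_right
  have := Fintype.ofFinite Y
  have := Fintype.ofFinite K
  have := Fintype.ofFinite D
  let θ : IrrCharacter D := ⟨fun d => (μ.comp (Subgroup.inclusion hDZ) d : ℂ), isIrrCharacter_of_unitsHom _⟩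
  have hDconj : ∀ y : Y, ∀ d ∈ D, y * d * y⁻¹ = d := by
    intro y d hd
    rw [← hZ d (hDZ hd) y, mul_inv_cancel_right]
  obtain ⟨ψ, hψ1, hψ2⟩ := Cfsg.Agent.S4449.result K S D (fun s _ g hg => hKn.conj_mem g hg s) hDK
    (fun g _ d hd => by rw [hDconj g d hd]; exact hd) (fun s _ d hd => by rw [hDconj s d hd]; exact hd)
    (by rw [hSc]; exact hKidx) hSsolv θ (by
      intro s _ g g' hg
      rw [hDconj s g g.2] at hg
      rw [Subtype.ext hg])
  -- central character of `ψ`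
  obtain ⟨ω, hω⟩ := ExtraChar.exists_central_hom ψ.2
  have hDc : ∀ d (hd : d ∈ D), (⟨d, hDK hd⟩ : K) ∈ Subgroup.center K := by
    intro d hd
    rw [Subgroup.mem_center_iff]
    intro k
    exact Subtype.ext (hZ d (hDZ hd) k).symm
  have hωμ : ∀ d (hd : d ∈ D), (ω ⟨⟨d, hDK hd⟩, hDc d hd⟩ : ℂ) = (μ ⟨d, hDZ hd⟩ : ℂ) := by
    let l : D →* ℂˣ := ω.comp
      { toFun := fun d : D => (⟨⟨(d : Y), hDK d.2⟩, hDc d d.2⟩ : Subgroup.center K)
        map_one' := rfl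
        map_mul' := fun _ _ => rfl }
    have h1 : (fun d : D => (ψ : K → ℂ) ⟨d, hDK d.2⟩) = ((ψ : K → ℂ) 1) • fun d : D => (l d : ℂ) := by
      funext d
      have := hω ⟨⟨(d : Y), hDK d.2⟩, hDc d d.2⟩ 1
      rw [one_mul] at this
      rw [Pi.smul_apply, smul_eq_mul, mul_comm]
      exact this
    rw [h1, classInner_smul_left] at hψ1
    have h2 := right_ne_zero_of_mul hψ1
    have h3 : (fun d : D => (l d : ℂ)) = (θ : D → ℂ) := by
      by_contra hne
      exact h2 ((isIrrCharacter_of_unitsHom l).classInner_eq_zero θ.2 hne)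
    intro d hd
    exact congrFun h3 ⟨d, hd⟩
  have hψD : ∀ (d : Y) (hd : d ∈ D) (k : K), (ψ : K → ℂ) (⟨d, hDK hd⟩ * k) = (μ ⟨d, hDZ hd⟩ : ℂ) * (ψ : K → ℂ) k := by
    intro d hd k
    have h1 := hω ⟨⟨d, hDK hd⟩, hDc d hd⟩ k
    rw [hωμ d hd] at h1
    rw [← h1]
    refine congrArg (ψ : K → ℂ) (Subtype.ext ?_)
    exact hZ d (hDZ hd) k
  have hψY : ∀ (y : Y) (k k' : K), (k' : Y) = y * k * y⁻¹ → (ψ : K → ℂ) k' = (ψ : K → ℂ) k := by
    intro y k k' hk'
    have hy : y ∈ ((K ⊔ S : Subgroup Y) : Set Y) := by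
      rw [hS.sup_eq_top]; exact Subgroup.mem_top y
    rw [Subgroup.normal_mul] at hy
    obtain ⟨k0, hk0, s, hs, rfl⟩ := hy
    have h1 := hψ2 s hs k ⟨s * k * s⁻¹, hKn.conj_mem k k.2 s⟩ rfl
    rw [← h1]
    have h2 := ψ.2.isClassFunction ⟨s * k * s⁻¹, hKn.conj_mem k k.2 s⟩ ⟨k0, hk0⟩
    rw [← h2]
    refine congrArg (ψ : K → ℂ) (Subtype.ext ?_)
    rw [hk']
    show k0 * s * k * (k0 * s)⁻¹ = k0 * (s * k * s⁻¹) * k0⁻¹
    group
  -- the product decomposition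
  have hZpX : Zp ≤ X := hZpZ.trans hZX
  let f : Zp × K →* X :=
    { toFun := fun p => ⟨(p.1 : Y) * p.2, X.mul_mem (hZpX p.1.2) (hKX p.2.2)⟩
      map_one' := Subtype.ext (mul_one (1 : Y))
      map_mul' := fun p q => by
        apply Subtype.ext
        show ((p.1 : Y) * q.1) * (p.2 * q.2) = (p.1 * p.2) * (q.1 * q.2)
        have := hZpc q.1 q.1.2 p.2
        calc ((p.1 : Y) * q.1) * (p.2 * q.2) = p.1 * (q.1 * p.2) * q.2 := by group
          _ = p.1 * (p.2 * q.1) * q.2 := by rw [this]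
          _ = _ := by group }
  have hf : Function.Bijective f := by
    constructor
    · rw [injective_iff_map_eq_one]
      rintro ⟨⟨z, hz⟩, ⟨k, hk⟩⟩ h
      have h1 : z * k = 1 := congrArg Subtype.val h
      have h2 : z = k⁻¹ := eq_inv_of_mul_eq_one_left h1
      have h3 : z ∈ K ⊓ Zp := ⟨by rw [h2]; exact K.inv_mem hk, hz⟩
      rw [hinf, Subgroup.mem_bot] at h3
      rw [h3, one_mul] at h1
      apply Prod.ext
      · exact Subtype.ext h3
      · exact Subtype.ext h1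
    · rintro ⟨x, hx⟩
      obtain ⟨z, hz, k, hk, rfl⟩ := hdec x hx
      exact ⟨(⟨z, hz⟩, ⟨k, hk⟩), rfl⟩
  let e : Zp × K ≃* X := MulEquiv.ofBijective f hf
  let φ : Zp × K → ℂ := fun p => (μ.comp (Subgroup.inclusion hZpZ) p.1 : ℂ) * (ψ : K → ℂ) p.2
  have hφ : IsIrrCharacter (Zp × K) φ := CharApps.isIrrCharacter_prod (isIrrCharacter_of_unitsHom _) ψ.2
  have hval : ∀ (z : Y) (hz : z ∈ Zp) (k : Y) (hk : k ∈ K) (x : X), (x : Y) = z * k →
      φ (e.symm x) = (μ ⟨z, hZpZ hz⟩ : ℂ) * (ψ : K → ℂ) ⟨k, hk⟩ := by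
    intro z hz k hk x hx
    have h1 : e.symm x = (⟨z, hz⟩, ⟨k, hk⟩) := by
      rw [MulEquiv.symm_apply_eq]
      exact Subtype.ext hx
    rw [h1]
    rfl
  refine ⟨fun x => φ (e.symm x), hφ.comp_surjective e.symm.toMonoidHom e.symm.surjective, ?_, ?_⟩
  · rintro y ⟨x, hx⟩
    obtain ⟨z, hz, k, hk, rfl⟩ := hdec x hx
    beta_reduce
    rw [hval z hz k hk ⟨z * k, hx⟩ rfl, hval z hz (y * k * y⁻¹) (hKn.conj_mem k hk y) _ (by
      show y * (z * k) * y⁻¹ = z * (y * k * y⁻¹)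
      have := hZpc z hz y
      calc y * (z * k) * y⁻¹ = (y * z) * k * y⁻¹ := by group
        _ = (z * y) * k * y⁻¹ := by rw [this]
        _ = _ := by group)]
    congr 1
    exact hψY y ⟨k, hk⟩ _ rfl
  · rintro z0 hz0 ⟨x, hx⟩
    obtain ⟨z, hz, k, hk, rfl⟩ := hdec x hx
    obtain ⟨z1, hz1, k1, hk1, e1⟩ := hdec z0 (hZX hz0)
    have hk1D : k1 ∈ D := by
      refine ⟨?_, hk1⟩
      have : k1 = z1⁻¹ * z0 := by rw [e1]; group
      rw [this]
      exact Z.mul_mem (Z.inv_mem (hZpZ hz1)) hz0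
    beta_reduce
    rw [hval z hz k hk ⟨z * k, hx⟩ rfl, hval (z1 * z) (Zp.mul_mem hz1 hz) (k1 * k) (K.mul_mem hk1 hk) _ (by
      show z0 * (z * k) = z1 * z * (k1 * k)
      rw [e1]
      have := hZpc z hz k1
      calc z1 * k1 * (z * k) = z1 * (k1 * z) * k := by group
        _ = z1 * (z * k1) * k := by rw [this]
        _ = _ := by group)]
    have h1 := hψD k1 hk1D ⟨k, hk⟩
    have h2 : (⟨k1, hDK hk1D⟩ * ⟨k, hk⟩ : K) = ⟨k1 * k, K.mul_mem hk1 hk⟩ := rfl
    rw [h2] at h1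
    rw [h1]
    have h3 : (⟨z1 * z, hZpZ (Zp.mul_mem hz1 hz)⟩ : Z) = ⟨z1, hZpZ hz1⟩ * ⟨z, hZpZ hz⟩ := rfl
    have h4 : (⟨z0, hz0⟩ : Z) = ⟨z1, hZpZ hz1⟩ * ⟨k1, hDZ hk1D⟩ := Subtype.ext e1
    rw [h3, h4, map_mul, map_mul, Units.val_mul, Units.val_mul]
    ring

end Cfsg.Agent.Lib.CharTriple
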