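import Mathlib
import Cfsg.Prelude.Def_PLocal
import Cfsg.Prelude.Def_BaumannBlocks
import Cfsg.Agent.Lib.ConjSylow

/-! The Chermak–Delgado lattice and centrally large subgroups. (helper50) -/

set_option autoImplicit false

namespace Cfsg.Agent.Lib.ChermakDelgado

open Cfsg Cfsg.Agent.Lib.ConjSylow
open scoped Pointwise commutatorElement

variable {P : Type*} [Group P] [Finite P]

/-- the Chermak–Delgado measure -/
noncomputable def cdm (H : Subgroup P) : ℕ :=
  Nat.card H * Nat.card (Subgroup.centralizer (H : Set P))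

theorem cdm_le_max (H : Subgroup P) : cdm H ≤ maxCentralizerProduct P := by
  apply le_csSup
  · have : Set.Finite {k : ℕ | ∃ R : Subgroup P, Nat.card ↥R * Nat.card ↥(Subgroup.centralizer (R : Set P)) = k} :=
      Set.finite_range (fun R : Subgroup P => Nat.card ↥R * Nat.card ↥(Subgroup.centralizer (R : Set P)))
    exact this.bddAbove
  · exact ⟨H, rfl⟩

theorem exists_cdm_eq_max : ∃ H : Subgroup P, cdm H = maxCentralizerProduct P := by
  have h : Set.Nonempty {k : ℕ | ∃ R : Subgroup P, Nat.card ↥R * Nat.card ↥(Subgroup.centralizer (R : Set P)) = k} :=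
    ⟨_, ⊥, rfl⟩
  have h2 := Nat.sSup_mem h (by
    have : Set.Finite {k : ℕ | ∃ R : Subgroup P, Nat.card ↥R * Nat.card ↥(Subgroup.centralizer (R : Set P)) = k} :=
      Set.finite_range (fun R : Subgroup P => Nat.card ↥R * Nat.card ↥(Subgroup.centralizer (R : Set P)))
    exact this.bddAbove)
  obtain ⟨R, hR⟩ := h2
  exact ⟨R, hR⟩

theorem isCentralizerLarge_iff {R : Subgroup P} : IsCentralizerLarge R ↔ cdm R = maxCentralizerProduct P :=
  Iff.rfl

theorem isCentralizerLarge_of_le {R : Subgroup P} (h : maxCentralizerProduct P ≤ cdm R) :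
    IsCentralizerLarge R := le_antisymm (cdm_le_max R) h

theorem centralizer_sup (H K : Subgroup P) :
    Subgroup.centralizer ((H ⊔ K : Subgroup P) : Set P) =
      Subgroup.centralizer (H : Set P) ⊓ Subgroup.centralizer (K : Set P) := by
  apply le_antisymm
  · exact le_inf (Subgroup.centralizer_le (SetLike.coe_subset_coe.2 le_sup_left))
      (Subgroup.centralizer_le (SetLike.coe_subset_coe.2 le_sup_right))
  · rw [Subgroup.le_centralizer_iff]
    apply sup_le
    · rw [Subgroup.le_centralizer_iff]; exact inf_le_left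
    · rw [Subgroup.le_centralizer_iff]; exact inf_le_right

theorem sup_centralizer_le (H K : Subgroup P) :
    Subgroup.centralizer (H : Set P) ⊔ Subgroup.centralizer (K : Set P) ≤
      Subgroup.centralizer ((H ⊓ K : Subgroup P) : Set P) :=
  sup_le (Subgroup.centralizer_le (SetLike.coe_subset_coe.2 inf_le_left))
    (Subgroup.centralizer_le (SetLike.coe_subset_coe.2 inf_le_right))

theorem mul_subset_sup (H K : Subgroup P) : (H : Set P) * (K : Set P) ⊆ ((H ⊔ K : Subgroup P) : Set P) := by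
  rintro _ ⟨a, ha, b, hb, rfl⟩
  exact Subgroup.mul_mem_sup ha hb

theorem card_mul_le (H K : Subgroup P) :
    Nat.card ↥((H : Set P) * (K : Set P)) ≤ Nat.card ↥(H ⊔ K) :=
  Nat.card_mono (Set.toFinite _) (mul_subset_sup H K)

/-- Main Chermak–Delgado computation. -/
theorem cd_main {Q R : Subgroup P} (hQ : IsCentralizerLarge Q) (hR : IsCentralizerLarge R) :
    ((Q ⊔ R : Subgroup P) : Set P) = (Q : Set P) * (R : Set P) ∧
    ((Subgroup.centralizer ((Q ⊓ R : Subgroup P) : Set P) : Subgroup P) : Set P) =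
      (Subgroup.centralizer (Q : Set P) : Set P) * (Subgroup.centralizer (R : Set P) : Set P) ∧
    IsCentralizerLarge (Q ⊔ R) ∧ IsCentralizerLarge (Q ⊓ R) := by
  set CQ := Subgroup.centralizer (Q : Set P) with hCQ
  set CR := Subgroup.centralizer (R : Set P) with hCR
  have h1 := card_mul_mul_card_inf Q R
  have h2 := card_mul_mul_card_inf CQ CR
  set a := Nat.card ↥((Q : Set P) * (R : Set P)) with ha
  set b := Nat.card ↥((CQ : Set P) * (CR : Set P)) with hb
  set M := maxCentralizerProduct P with hM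
  have hQ' : Nat.card Q * Nat.card CQ = M := hQ
  have hR' : Nat.card R * Nat.card CR = M := hR
  have h3 : a ≤ Nat.card ↥(Q ⊔ R) := card_mul_le Q R
  have hsub : (CQ : Set P) * (CR : Set P) ⊆ (Subgroup.centralizer ((Q ⊓ R : Subgroup P) : Set P) : Set P) :=
    (mul_subset_sup CQ CR).trans (sup_centralizer_le Q R)
  have h4 : b ≤ Nat.card ↥(Subgroup.centralizer ((Q ⊓ R : Subgroup P) : Set P)) :=
    Nat.card_mono (Set.toFinite _) hsub
  have h5 : cdm (Q ⊔ R) ≤ M := cdm_le_max _
  have h6 : cdm (Q ⊓ R) ≤ M := cdm_le_max _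
  have h7 : cdm (Q ⊔ R) = Nat.card ↥(Q ⊔ R) * Nat.card ↥(CQ ⊓ CR) := by
    rw [cdm, centralizer_sup]
  have h8 : cdm (Q ⊓ R) = Nat.card ↥(Q ⊓ R) *
    Nat.card ↥(Subgroup.centralizer ((Q ⊓ R : Subgroup P) : Set P)) := rfl
  have p1 : 0 < Nat.card ↥(Q ⊓ R) := Nat.card_pos
  have p2 : 0 < Nat.card ↥(CQ ⊓ CR) := Nat.card_pos
  have h9 : a * Nat.card ↥(CQ ⊓ CR) * (b * Nat.card ↥(Q ⊓ R)) = M * M := by
    calc a * Nat.card ↥(CQ ⊓ CR) * (b * Nat.card ↥(Q ⊓ R))
        = (a * Nat.card ↥(Q ⊓ R)) * (b * Nat.card ↥(CQ ⊓ CR)) := by ring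
      _ = (Nat.card Q * Nat.card R) * (Nat.card CQ * Nat.card CR) := by rw [h1, h2]
      _ = (Nat.card Q * Nat.card CQ) * (Nat.card R * Nat.card CR) := by ring
      _ = M * M := by rw [hQ', hR']
  have hMpos : 0 < M := by
    rw [← hQ']; exact Nat.mul_pos Nat.card_pos Nat.card_pos
  -- x ≤ X ≤ M, y ≤ Y ≤ M, x y = M M
  set x := a * Nat.card ↥(CQ ⊓ CR) with hx
  set y := b * Nat.card ↥(Q ⊓ R) with hy
  have hxX : x ≤ cdm (Q ⊔ R) := by rw [h7]; exact Nat.mul_le_mul_right _ h3
  have hyY : y ≤ cdm (Q ⊓ R) := by rw [h8, mul_comm (Nat.card ↥(Q ⊓ R))]; exact Nat.mul_le_mul_right _ h4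
  have hxM : x ≤ M := hxX.trans h5
  have hyM : y ≤ M := hyY.trans h6
  have hx1 : x = M := by
    by_contra hne
    have : x < M := lt_of_le_of_ne hxM hne
    have : x * y < M * M := Nat.mul_lt_mul_of_lt_of_le this hyM hMpos
    omega
  have hy1 : y = M := by
    by_contra hne
    have : y < M := lt_of_le_of_ne hyM hne
    have : x * y < M * M := Nat.mul_lt_mul_of_le_of_lt hxM this hMpos
    omega
  have e1 : a = Nat.card ↥(Q ⊔ R) := by
    apply le_antisymm h3
    by_contra hne
    push Not at hne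
    have : x < cdm (Q ⊔ R) := by rw [h7]; exact Nat.mul_lt_mul_of_pos_right hne p2
    omega
  have e2 : b = Nat.card ↥(Subgroup.centralizer ((Q ⊓ R : Subgroup P) : Set P)) := by
    apply le_antisymm h4
    by_contra hne
    push Not at hne
    have : y < cdm (Q ⊓ R) := by
      rw [h8, mul_comm (Nat.card ↥(Q ⊓ R))]; exact Nat.mul_lt_mul_of_pos_right hne p1
    omega
  refine ⟨?_, ?_, ?_, ?_⟩
  · exact (Set.Finite.eq_of_subset_of_card_le (Set.toFinite _) (mul_subset_sup Q R) e1.ge).symm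
  · exact (Set.Finite.eq_of_subset_of_card_le (Set.toFinite _) hsub e2.ge).symm
  · exact isCentralizerLarge_of_le (by rw [← hM, ← hx1]; exact hxX)
  · exact isCentralizerLarge_of_le (by rw [← hM, ← hy1]; exact hyY)

theorem coe_sup_centralizer {Q R : Subgroup P} (hQ : IsCentralizerLarge Q) (hR : IsCentralizerLarge R) :
    Subgroup.centralizer ((Q ⊓ R : Subgroup P) : Set P) =
      Subgroup.centralizer (Q : Set P) ⊔ Subgroup.centralizer (R : Set P) := by
  apply le_antisymm
  · rw [← SetLike.coe_subset_coe, (cd_main hQ hR).2.1]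
    exact mul_subset_sup _ _
  · exact sup_centralizer_le Q R

theorem le_centralizer_centralizer (Q : Subgroup P) :
    Q ≤ Subgroup.centralizer ((Subgroup.centralizer (Q : Set P) : Subgroup P) : Set P) := by
  rw [Subgroup.le_centralizer_iff]

theorem isCentralizerLarge_centralizer {Q : Subgroup P} (hQ : IsCentralizerLarge Q) :
    IsCentralizerLarge (Subgroup.centralizer (Q : Set P)) ∧
      Q = Subgroup.centralizer ((Subgroup.centralizer (Q : Set P) : Subgroup P) : Set P) := by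
  have h1 := le_centralizer_centralizer Q
  have h2 : Nat.card Q ≤ Nat.card ↥(Subgroup.centralizer ((Subgroup.centralizer (Q : Set P) : Subgroup P) : Set P)) :=
    Nat.card_mono (Set.toFinite _) h1
  have h3 : cdm (Subgroup.centralizer (Q : Set P)) ≤ maxCentralizerProduct P := cdm_le_max _
  have hQ' : Nat.card Q * Nat.card (Subgroup.centralizer (Q : Set P)) = maxCentralizerProduct P := hQ
  have h4 : maxCentralizerProduct P ≤ cdm (Subgroup.centralizer (Q : Set P)) := by
    rw [← hQ', cdm, mul_comm]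
    exact Nat.mul_le_mul_left _ h2
  refine ⟨isCentralizerLarge_of_le h4, ?_⟩
  apply Subgroup.eq_of_le_of_card_ge h1
  have h5 : cdm (Subgroup.centralizer (Q : Set P)) =
    Nat.card Q * Nat.card (Subgroup.centralizer (Q : Set P)) := by
    rw [hQ']; exact le_antisymm h3 h4
  rw [cdm, mul_comm] at h5
  exact (Nat.eq_of_mul_eq_mul_right Nat.card_pos h5).le

theorem IsCentralizerLarge.eq_cc {Q : Subgroup P} (hQ : IsCentralizerLarge Q) :
    Subgroup.centralizer ((Subgroup.centralizer (Q : Set P) : Subgroup P) : Set P) = Q :=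
  (isCentralizerLarge_centralizer hQ).2.symm

/-! ### centrally large -/

theorem map_center_subtype (R : Subgroup P) :
    (Subgroup.center R).map R.subtype = R ⊓ Subgroup.centralizer (R : Set P) := by
  ext x
  constructor
  · rintro ⟨y, hy, rfl⟩
    refine Subgroup.mem_inf.2 ⟨y.2, ?_⟩
    rw [Subgroup.mem_centralizer_iff]
    intro z hz
    have := Subgroup.mem_center_iff.1 hy ⟨z, hz⟩
    exact congrArg Subtype.val this
  · intro hx
    obtain ⟨h1, h2⟩ := Subgroup.mem_inf.1 hx
    refine ⟨⟨x, h1⟩, ?_, rfl⟩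
    apply Subgroup.mem_center_iff.2
    intro z
    apply Subtype.ext
    exact Subgroup.mem_centralizer_iff.1 h2 z z.2

theorem card_center_eq (R : Subgroup P) :
    Nat.card (Subgroup.center R) = Nat.card ↥(R ⊓ Subgroup.centralizer (R : Set P)) := by
  rw [← map_center_subtype, Subgroup.card_map_of_injective R.subtype_injective]

theorem card_center_le (R : Subgroup P) :
    Nat.card (Subgroup.center R) ≤ Nat.card ↥(Subgroup.centralizer (R : Set P)) := by
  rw [card_center_eq]
  exact Nat.card_mono (Set.toFinite _) inf_le_right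

theorem clm_le_max (H : Subgroup P) :
    Nat.card H * Nat.card (Subgroup.center H) ≤ maxCentralProduct P := by
  apply le_csSup
  · have : Set.Finite {k : ℕ | ∃ R : Subgroup P, Nat.card ↥R * Nat.card ↥(Subgroup.center R) = k} :=
      Set.finite_range (fun R : Subgroup P => Nat.card ↥R * Nat.card ↥(Subgroup.center R))
    exact this.bddAbove
  · exact ⟨H, rfl⟩

theorem exists_isCentrallyLarge : ∃ H : Subgroup P, IsCentrallyLarge H := by
  have h : Set.Nonempty {k : ℕ | ∃ R : Subgroup P, Nat.card ↥R * Nat.card ↥(Subgroup.center R) = k} :=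
    ⟨_, ⊥, rfl⟩
  have h2 := Nat.sSup_mem h (by
    have : Set.Finite {k : ℕ | ∃ R : Subgroup P, Nat.card ↥R * Nat.card ↥(Subgroup.center R) = k} :=
      Set.finite_range (fun R : Subgroup P => Nat.card ↥R * Nat.card ↥(Subgroup.center R))
    exact this.bddAbove)
  obtain ⟨R, hR⟩ := h2
  exact ⟨R, hR⟩

theorem card_center_of_centralizer_le {R : Subgroup P} (h : Subgroup.centralizer (R : Set P) ≤ R) :
    Nat.card (Subgroup.center R) = Nat.card ↥(Subgroup.centralizer (R : Set P)) := by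
  rw [card_center_eq, inf_eq_right.2 h]

theorem maxCentralProduct_eq : maxCentralProduct P = maxCentralizerProduct P := by
  apply le_antisymm
  · obtain ⟨R, hR⟩ := exists_isCentrallyLarge (P := P)
    have h1 : Nat.card R * Nat.card (Subgroup.center R) = maxCentralProduct P := hR
    rw [← h1]
    exact le_trans (Nat.mul_le_mul_left _ (card_center_le R)) (cdm_le_max R)
  · obtain ⟨Q, hQ⟩ := exists_cdm_eq_max (P := P)
    have hQl : IsCentralizerLarge Q := hQ
    obtain ⟨hC, hcc⟩ := isCentralizerLarge_centralizer hQl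
    have hR := (cd_main hQl hC).2.2.1
    have hR2 : Subgroup.centralizer ((Q ⊔ Subgroup.centralizer (Q : Set P) : Subgroup P) : Set P) ≤
        Q ⊔ Subgroup.centralizer (Q : Set P) := by
      rw [centralizer_sup]
      exact le_trans inf_le_left le_sup_right
    have h3 : cdm (Q ⊔ Subgroup.centralizer (Q : Set P)) = maxCentralizerProduct P := hR
    rw [← h3, cdm, ← card_center_of_centralizer_le hR2]
    exact clm_le_max _

theorem isCentrallyLarge_iff {R : Subgroup P} :
    IsCentrallyLarge R ↔ IsCentralizerLarge R ∧ Subgroup.centralizer (R : Set P) ≤ R := by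
  constructor
  · intro h
    have h1 : Nat.card R * Nat.card (Subgroup.center R) = maxCentralProduct P := h
    have h2 : cdm R ≤ maxCentralizerProduct P := cdm_le_max R
    rw [← maxCentralProduct_eq, ← h1, cdm] at h2
    have h3 : Nat.card ↥(Subgroup.centralizer (R : Set P)) ≤ Nat.card (Subgroup.center R) :=
      Nat.le_of_mul_le_mul_left h2 Nat.card_pos
    have h4 : R ⊓ Subgroup.centralizer (R : Set P) = Subgroup.centralizer (R : Set P) := by
      apply Subgroup.eq_of_le_of_card_ge inf_le_right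
      rw [← card_center_eq]; exact h3
    have h5 := inf_eq_right.1 h4
    refine ⟨?_, h5⟩
    rw [isCentralizerLarge_iff, cdm, ← card_center_of_centralizer_le h5, h1, maxCentralProduct_eq]
  · rintro ⟨h1, h2⟩
    have h3 : cdm R = maxCentralizerProduct P := h1
    rw [IsCentrallyLarge, card_center_of_centralizer_le h2, maxCentralProduct_eq]
    exact h3

theorem IsCentrallyLarge.large {R : Subgroup P} (h : IsCentrallyLarge R) : IsCentralizerLarge R :=
  (isCentrallyLarge_iff.1 h).1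

theorem IsCentrallyLarge.centralizer_le {R : Subgroup P} (h : IsCentrallyLarge R) :
    Subgroup.centralizer (R : Set P) ≤ R := (isCentrallyLarge_iff.1 h).2

theorem IsCentrallyLarge.inf_centralizer {R : Subgroup P} (h : IsCentrallyLarge R) :
    R ⊓ Subgroup.centralizer (R : Set P) = Subgroup.centralizer (R : Set P) :=
  inf_eq_right.2 (IsCentrallyLarge.centralizer_le h)

theorem isCentrallyLarge_sup_of_large {Q R : Subgroup P} (hQ : IsCentrallyLarge Q) (hR : IsCentralizerLarge R) :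
    IsCentrallyLarge (Q ⊔ R) := by
  refine isCentrallyLarge_iff.2 ⟨(cd_main (IsCentrallyLarge.large hQ) hR).2.2.1, ?_⟩
  rw [centralizer_sup]
  exact le_trans inf_le_left (le_trans (IsCentrallyLarge.centralizer_le hQ) le_sup_left)

theorem isCentrallyLarge_sup {Q R : Subgroup P} (hQ : IsCentrallyLarge Q) (hR : IsCentrallyLarge R) :
    IsCentrallyLarge (Q ⊔ R) := isCentrallyLarge_sup_of_large hQ (IsCentrallyLarge.large hR)

theorem coe_sup {Q R : Subgroup P} (hQ : IsCentrallyLarge Q) (hR : IsCentrallyLarge R) :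
    ((Q ⊔ R : Subgroup P) : Set P) = (Q : Set P) * (R : Set P) :=
  (cd_main (IsCentrallyLarge.large hQ) (IsCentrallyLarge.large hR)).1

theorem isCentrallyLarge_sSup {S : Set (Subgroup P)} (hne : S.Nonempty) (h : ∀ Q ∈ S, IsCentrallyLarge Q) :
    IsCentrallyLarge (sSup S) := by
  have hc : SupClosed {Q : Subgroup P | IsCentrallyLarge Q} := fun A hA B hB => isCentrallyLarge_sup hA hB
  exact hc.sSup_mem_of_nonempty (Set.toFinite _) hne h

theorem exists_minimal_le {Q : Subgroup P} (hQ : IsCentrallyLarge Q) :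
    ∃ R ≤ Q, IsMinimalCentrallyLarge R := by
  obtain ⟨R, ⟨hR1, hR2⟩, hmin⟩ := Set.Finite.exists_minimal (Set.toFinite {R : Subgroup P | R ≤ Q ∧ IsCentrallyLarge R})
    ⟨Q, le_rfl, hQ⟩
  refine ⟨R, hR1, hR2, ?_⟩
  intro R' hR' hR'2
  exact le_antisymm hR' (hmin ⟨hR'.trans hR1, hR'2⟩ hR')

theorem exists_isMinimalCentrallyLarge : ∃ R : Subgroup P, IsMinimalCentrallyLarge R := by
  obtain ⟨Q, hQ⟩ := exists_isCentrallyLarge (P := P)
  obtain ⟨R, _, hR⟩ := exists_minimal_le hQ
  exact ⟨R, hR⟩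

theorem isCentrallyLarge_centrallyLargeJoin : IsCentrallyLarge (centrallyLargeJoin P) := by
  obtain ⟨Q, hQ⟩ := exists_isCentrallyLarge (P := P)
  exact isCentrallyLarge_sSup ⟨Q, hQ⟩ (fun _ h => h)

theorem isCentrallyLarge_minimalCentrallyLargeJoin : IsCentrallyLarge (minimalCentrallyLargeJoin P) := by
  obtain ⟨Q, hQ⟩ := exists_isMinimalCentrallyLarge (P := P)
  exact isCentrallyLarge_sSup ⟨Q, hQ⟩ (fun _ h => h.1)

/-! ### Abelian subgroups of largest order -/

theorem exists_maxAbelian : ∃ A : Subgroup P, A ∈ maxAbelianSubgroups P := by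
  have hfin : Set.Finite {A : Subgroup P | IsMulCommutative A} := Set.toFinite _
  have hne : {A : Subgroup P | IsMulCommutative A}.Nonempty := by
    refine ⟨⊥, ?_⟩
    exact Subgroup.le_centralizer_iff_isMulCommutative.1 bot_le
  obtain ⟨A, hA, hmax⟩ := Set.exists_max_image _ (fun A : Subgroup P => Nat.card A) hfin hne
  exact ⟨A, hA, hmax⟩

theorem isMulCommutative_iff {A : Subgroup P} : IsMulCommutative A ↔ A ≤ Subgroup.centralizer (A : Set P) :=
  Subgroup.le_centralizer_iff_isMulCommutative.symm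

theorem isMulCommutative_sup {A B : Subgroup P} (hA : IsMulCommutative A) (hB : IsMulCommutative B)
    (hAB : A ≤ Subgroup.centralizer (B : Set P)) : IsMulCommutative ↥(A ⊔ B) := by
  rw [isMulCommutative_iff] at hA hB ⊢
  rw [centralizer_sup]
  exact sup_le (le_inf hA hAB) (le_inf (Subgroup.le_centralizer_iff.1 hAB) hB)

theorem maxAbelian_centralizer {A : Subgroup P} (hA : A ∈ maxAbelianSubgroups P) :
    Subgroup.centralizer (A : Set P) = A := by
  obtain ⟨hc, hmax⟩ := hA
  apply le_antisymm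
  · intro x hx
    have h1 : IsMulCommutative ↥(A ⊔ Subgroup.zpowers x) := by
      apply isMulCommutative_sup hc
      · exact Subgroup.zpowers_isMulCommutative x
      · rw [Subgroup.le_centralizer_iff, Subgroup.zpowers_le]
        exact hx
    have h2 : A = A ⊔ Subgroup.zpowers x :=
      Subgroup.eq_of_le_of_card_ge le_sup_left (hmax _ h1)
    rw [h2]
    exact Subgroup.mem_sup_right (Subgroup.mem_zpowers x)
  · exact isMulCommutative_iff.1 hc

/-- Main fact on a centrally large `Q` and an abelian subgroup `A` of largest order. -/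
theorem cl_maxAbelian {Q A : Subgroup P} (hQ : IsCentrallyLarge Q) (hA : A ∈ maxAbelianSubgroups P) :
    ((Q ⊔ A : Subgroup P) : Set P) = (Q : Set P) * (A : Set P) ∧ IsCentrallyLarge (Q ⊔ A) ∧
      (Subgroup.centralizer (Q : Set P) ⊔ (Q ⊓ A)) ∈ maxAbelianSubgroups P := by
  set Z := Subgroup.centralizer (Q : Set P) with hZ
  have hZQ : Z ≤ Q := IsCentrallyLarge.centralizer_le hQ
  have hCA := maxAbelian_centralizer hA
  set D := Z ⊓ A with hD
  have hCR : Subgroup.centralizer ((Q ⊔ A : Subgroup P) : Set P) = D := by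
    rw [centralizer_sup, hCA]
  have hZab : IsMulCommutative Z := by
    rw [isMulCommutative_iff]
    exact le_trans hZQ (le_centralizer_centralizer Q)
  have hBab : IsMulCommutative ↥(Q ⊓ A) := by
    rw [isMulCommutative_iff]
    exact le_trans inf_le_right (le_trans (isMulCommutative_iff.1 hA.1)
      (Subgroup.centralizer_le (SetLike.coe_subset_coe.2 inf_le_right)))
  have hZB : Z ≤ Subgroup.centralizer ((Q ⊓ A : Subgroup P) : Set P) :=
    Subgroup.centralizer_le (SetLike.coe_subset_coe.2 inf_le_left)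
  have hZBab : IsMulCommutative ↥(Z ⊔ (Q ⊓ A)) := isMulCommutative_sup hZab hBab hZB
  have hZBn : Z ≤ Subgroup.normalizer ((Q ⊓ A : Subgroup P) : Set P) :=
    le_trans hZB (Subgroup.centralizer_le_normalizer _)
  have h1 := card_sup_mul_card_inf hZBn
  have h2 : Z ⊓ (Q ⊓ A) = D := by rw [← inf_assoc, inf_eq_left.2 hZQ]
  rw [h2] at h1
  have h3 := hA.2 _ hZBab
  have h4 := card_mul_mul_card_inf Q A
  set a := Nat.card ↥((Q : Set P) * (A : Set P)) with ha
  have h5 : a ≤ Nat.card ↥(Q ⊔ A) := card_mul_le Q A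
  have h6 : cdm (Q ⊔ A) ≤ maxCentralizerProduct P := cdm_le_max _
  have h7 : cdm (Q ⊔ A) = Nat.card ↥(Q ⊔ A) * Nat.card D := by rw [cdm, hCR]
  have h8 : Nat.card Q * Nat.card Z = maxCentralizerProduct P := IsCentrallyLarge.large hQ
  have pB : 0 < Nat.card ↥(Q ⊓ A) := Nat.card_pos
  have pD : 0 < Nat.card D := Nat.card_pos
  have pQ : 0 < Nat.card Q := Nat.card_pos
  -- |Q||Z||B| ≤ |Q||A||D| = a |B| |D|
  have h9 : Nat.card Q * Nat.card Z * Nat.card ↥(Q ⊓ A) ≤ a * Nat.card D * Nat.card ↥(Q ⊓ A) := by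
    calc Nat.card Q * Nat.card Z * Nat.card ↥(Q ⊓ A)
        = Nat.card Q * (Nat.card Z * Nat.card ↥(Q ⊓ A)) := by ring
      _ = Nat.card Q * (Nat.card ↥(Z ⊔ (Q ⊓ A)) * Nat.card D) := by rw [h1]
      _ ≤ Nat.card Q * (Nat.card A * Nat.card D) :=
          Nat.mul_le_mul_left _ (Nat.mul_le_mul_right _ h3)
      _ = (Nat.card Q * Nat.card A) * Nat.card D := by ring
      _ = (a * Nat.card ↥(Q ⊓ A)) * Nat.card D := by rw [h4]
      _ = _ := by ring
  have h10 : maxCentralizerProduct P ≤ a * Nat.card D := by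
    rw [← h8]; exact Nat.le_of_mul_le_mul_right h9 pB
  have h11 : a * Nat.card D ≤ cdm (Q ⊔ A) := by rw [h7]; exact Nat.mul_le_mul_right _ h5
  have h12 : a * Nat.card D = maxCentralizerProduct P := le_antisymm (h11.trans h6) h10
  have h13 : Nat.card ↥(Q ⊔ A) * Nat.card D = a * Nat.card D := by
    rw [h12, ← h7]; exact le_antisymm h6 (h10.trans h11)
  have h14 : Nat.card ↥(Q ⊔ A) = a := Nat.eq_of_mul_eq_mul_right pD h13
  refine ⟨?_, ?_, ?_, ?_⟩
  · exact (Set.Finite.eq_of_subset_of_card_le (Set.toFinite _) (mul_subset_sup Q A) h14.le).symm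
  · refine isCentrallyLarge_iff.2 ⟨isCentralizerLarge_of_le (h10.trans h11), ?_⟩
    rw [hCR]
    exact le_trans inf_le_right le_sup_right
  · exact hZBab
  · intro B hB
    refine (hA.2 B hB).trans ?_
    -- |A| ≤ |Z B|
    have h15 : Nat.card Q * (Nat.card A * Nat.card D) ≤ Nat.card Q * (Nat.card ↥(Z ⊔ (Q ⊓ A)) * Nat.card D) := by
      calc Nat.card Q * (Nat.card A * Nat.card D) = (Nat.card Q * Nat.card A) * Nat.card D := by ring
        _ = (a * Nat.card ↥(Q ⊓ A)) * Nat.card D := by rw [h4]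
        _ = (a * Nat.card D) * Nat.card ↥(Q ⊓ A) := by ring
        _ = (Nat.card Q * Nat.card Z) * Nat.card ↥(Q ⊓ A) := by rw [h12, h8]
        _ = Nat.card Q * (Nat.card Z * Nat.card ↥(Q ⊓ A)) := by ring
        _ = Nat.card Q * (Nat.card ↥(Z ⊔ (Q ⊓ A)) * Nat.card D) := by rw [h1]
        _ ≤ _ := le_rfl
    have h16 := Nat.le_of_mul_le_mul_left h15 pQ
    exact Nat.le_of_mul_le_mul_right h16 pD

/-- `C_{QA}(Q ∩ A) = Z(Q) A`. -/
theorem cl_maxAbelian_centralizer {Q A : Subgroup P} (hQ : IsCentrallyLarge Q) (hA : A ∈ maxAbelianSubgroups P) :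
    (Q ⊔ A) ⊓ Subgroup.centralizer ((Q ⊓ A : Subgroup P) : Set P) =
      Subgroup.centralizer (Q : Set P) ⊔ A ∧
    ((Subgroup.centralizer (Q : Set P) ⊔ A : Subgroup P) : Set P) =
      (Subgroup.centralizer (Q : Set P) : Set P) * (A : Set P) := by
  obtain ⟨h1, _, h3⟩ := cl_maxAbelian hQ hA
  set Z := Subgroup.centralizer (Q : Set P) with hZ
  have hZQ : Z ≤ Q := IsCentrallyLarge.centralizer_le hQ
  have hZB : Z ≤ Subgroup.centralizer ((Q ⊓ A : Subgroup P) : Set P) :=
    Subgroup.centralizer_le (SetLike.coe_subset_coe.2 inf_le_left)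
  have hAB : A ≤ Subgroup.centralizer ((Q ⊓ A : Subgroup P) : Set P) :=
    le_trans (isMulCommutative_iff.1 hA.1)
      (Subgroup.centralizer_le (SetLike.coe_subset_coe.2 inf_le_right))
  have hCZB := maxAbelian_centralizer h3
  -- key: every element of (QA) ∩ C(B) is z a
  have key : ∀ x ∈ (Q ⊔ A) ⊓ Subgroup.centralizer ((Q ⊓ A : Subgroup P) : Set P),
      x ∈ (Z : Set P) * (A : Set P) := by
    intro x hx
    obtain ⟨hx1, hx2⟩ := Subgroup.mem_inf.1 hx
    have hx3 : x ∈ ((Q ⊔ A : Subgroup P) : Set P) := hx1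
    rw [h1] at hx3
    obtain ⟨q, hq, a, ha, rfl⟩ := hx3
    have hqC : q ∈ Subgroup.centralizer ((Q ⊓ A : Subgroup P) : Set P) := by
      have : q = (q * a) * a⁻¹ := by group
      rw [this]
      exact Subgroup.mul_mem _ hx2 (Subgroup.inv_mem _ (hAB ha))
    have hqC2 : q ∈ Subgroup.centralizer ((Z ⊔ (Q ⊓ A) : Subgroup P) : Set P) := by
      rw [centralizer_sup]
      exact Subgroup.mem_inf.2 ⟨le_centralizer_centralizer Q hq, hqC⟩
    rw [hCZB] at hqC2
    have hn : Z ≤ Subgroup.normalizer ((Q ⊓ A : Subgroup P) : Set P) :=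
      le_trans hZB (Subgroup.centralizer_le_normalizer _)
    obtain ⟨z, hz, b, hb, rfl⟩ := (mem_sup_of_le_normalizer hn).1 hqC2
    exact ⟨z, hz, b * a, A.mul_mem (Subgroup.mem_inf.1 hb).2 ha, by simp [mul_assoc]⟩
  have hle : Z ⊔ A ≤ (Q ⊔ A) ⊓ Subgroup.centralizer ((Q ⊓ A : Subgroup P) : Set P) :=
    le_inf (sup_le_sup_right hZQ _) (sup_le hZB hAB)
  refine ⟨le_antisymm ?_ hle, ?_⟩
  · intro x hx
    exact mul_subset_sup Z A (key x hx)
  · apply Set.Subset.antisymm
    · intro x hx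
      exact key x (hle hx)
    · exact mul_subset_sup Z A

theorem centralizer_thompsonSubgroupA_le :
    Subgroup.centralizer (thompsonSubgroupA P : Set P) ≤ thompsonSubgroupA P := by
  obtain ⟨A, hA⟩ := exists_maxAbelian (P := P)
  have h1 : A ≤ thompsonSubgroupA P := le_sSup hA
  calc Subgroup.centralizer (thompsonSubgroupA P : Set P) ≤ Subgroup.centralizer (A : Set P) :=
        Subgroup.centralizer_le (SetLike.coe_subset_coe.2 h1)
    _ = A := maxAbelian_centralizer hA
    _ ≤ _ := h1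

theorem thompsonA_inf_centralizer :
    thompsonSubgroupA P ⊓ Subgroup.centralizer (thompsonSubgroupA P : Set P) =
      Subgroup.centralizer (thompsonSubgroupA P : Set P) :=
  inf_eq_right.2 centralizer_thompsonSubgroupA_le

theorem isCentrallyLarge_sup_thompsonA {Q : Subgroup P} (hQ : IsCentrallyLarge Q) :
    IsCentrallyLarge (Q ⊔ thompsonSubgroupA P) := by
  have h : ∀ S : Set (Subgroup P), S ⊆ maxAbelianSubgroups P → IsCentrallyLarge (Q ⊔ sSup S) := by
    intro S
    refine Set.Finite.induction_on (motive := fun S _ => S ⊆ maxAbelianSubgroups P → IsCentrallyLarge (Q ⊔ sSup S))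
      S (Set.toFinite S) ?_ ?_
    · intro _
      simpa using hQ
    · intro A S _ _ ih hS
      rw [sSup_insert]
      have h1 := ih (fun B hB => hS (Set.mem_insert_of_mem _ hB))
      have h2 := (cl_maxAbelian h1 (hS (Set.mem_insert _ _))).2.1
      have e : Q ⊔ (A ⊔ sSup S) = Q ⊔ sSup S ⊔ A := by
        rw [sup_comm A, sup_assoc]
      rw [e]; exact h2
  exact h _ (fun _ h => h)

theorem tildeJ_le_of_ge {R : Subgroup P} (hR : IsCentrallyLarge R) (hJ : thompsonSubgroupA P ≤ R) :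
    Subgroup.centralizer ((thompsonSubgroupA P ⊓ Subgroup.centralizer (thompsonSubgroupA P : Set P) : Subgroup P) : Set P) ≤ R := by
  rw [thompsonA_inf_centralizer]
  have h1 : Subgroup.centralizer (R : Set P) ≤ Subgroup.centralizer (thompsonSubgroupA P : Set P) :=
    Subgroup.centralizer_le (SetLike.coe_subset_coe.2 hJ)
  calc Subgroup.centralizer ((Subgroup.centralizer (thompsonSubgroupA P : Set P) : Subgroup P) : Set P)
      ≤ Subgroup.centralizer ((Subgroup.centralizer (R : Set P) : Subgroup P) : Set P) :=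
        Subgroup.centralizer_le (SetLike.coe_subset_coe.2 h1)
    _ = R := IsCentralizerLarge.eq_cc (IsCentrallyLarge.large hR)

theorem thompsonA_le_centrallyLargeJoin : thompsonSubgroupA P ≤ centrallyLargeJoin P := by
  have h := isCentrallyLarge_sup_thompsonA (P := P) isCentrallyLarge_centrallyLargeJoin
  have h2 : centrallyLargeJoin P ⊔ thompsonSubgroupA P ≤ centrallyLargeJoin P := le_sSup h
  exact le_trans le_sup_right h2

/-! ### Minimal centrally large subgroups -/

theorem mcl_eq_inf_sup {Q R : Subgroup P} (hQ : IsMinimalCentrallyLarge Q) (hR : IsMinimalCentrallyLarge R) :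
    (Q ⊓ R) ⊔ Subgroup.centralizer (Q : Set P) = Q := by
  have hQl := IsCentrallyLarge.large hQ.1
  have hRl := IsCentrallyLarge.large hR.1
  have hZQ := IsCentrallyLarge.centralizer_le hQ.1
  have hZR := IsCentrallyLarge.centralizer_le hR.1
  apply hQ.2
  · exact sup_le inf_le_left hZQ
  · rw [isCentrallyLarge_iff]
    have hI := (cd_main hQl hRl).2.2.2
    have hC := (isCentralizerLarge_centralizer hQl).1
    refine ⟨(cd_main hI hC).2.2.1, ?_⟩
    rw [centralizer_sup, IsCentralizerLarge.eq_cc hQl]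
    intro x hx
    obtain ⟨hx1, hx2⟩ := Subgroup.mem_inf.1 hx
    have hx3 : x ∈ (Subgroup.centralizer ((Q ⊓ R : Subgroup P) : Set P) : Set P) := hx1
    rw [(cd_main hQl hRl).2.1] at hx3
    obtain ⟨u, hu, v, hv, rfl⟩ := hx3
    have hvQ : v ∈ Q := by
      have : v = u⁻¹ * (u * v) := by group
      rw [this]
      exact Q.mul_mem (Q.inv_mem (hZQ hu)) hx2
    rw [sup_comm]
    exact Subgroup.mul_mem_sup hu ⟨hvQ, hZR hv⟩

theorem mcl_inf_centralizer_le {Q R : Subgroup P} (hQ : IsMinimalCentrallyLarge Q)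
    (hR : IsMinimalCentrallyLarge R) :
    (Q ⊓ R) ⊓ Subgroup.centralizer ((Q ⊓ R : Subgroup P) : Set P) ≤ Subgroup.centralizer (Q : Set P) := by
  intro x hx
  obtain ⟨hx1, hx2⟩ := Subgroup.mem_inf.1 hx
  have h1 : x ∈ Subgroup.centralizer (((Q ⊓ R) ⊔ Subgroup.centralizer (Q : Set P) : Subgroup P) : Set P) := by
    rw [centralizer_sup]
    exact Subgroup.mem_inf.2 ⟨hx2, le_centralizer_centralizer Q (Subgroup.mem_inf.1 hx1).1⟩
  rwa [mcl_eq_inf_sup hQ hR] at h1

theorem mcl_inf_eq {Q R : Subgroup P} (hQ : IsMinimalCentrallyLarge Q) (hR : IsMinimalCentrallyLarge R) :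
    (Q ⊓ R) ⊓ Subgroup.centralizer (Q : Set P) =
      Subgroup.centralizer (Q : Set P) ⊓ Subgroup.centralizer (R : Set P) := by
  have hZQ := IsCentrallyLarge.centralizer_le hQ.1
  have hZR := IsCentrallyLarge.centralizer_le hR.1
  apply le_antisymm
  · refine le_inf inf_le_right ?_
    have h1 := mcl_inf_centralizer_le hR hQ
    rw [inf_comm R Q] at h1
    refine le_trans ?_ h1
    refine le_inf inf_le_left ?_
    exact le_trans inf_le_right (Subgroup.centralizer_le (SetLike.coe_subset_coe.2 inf_le_left))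
  · exact le_inf (le_inf (inf_le_left.trans hZQ) (inf_le_right.trans hZR)) inf_le_left

theorem card_mcl_mul {Q R : Subgroup P} (hQ : IsMinimalCentrallyLarge Q) (hR : IsMinimalCentrallyLarge R) :
    Nat.card Q * Nat.card ↥(Subgroup.centralizer (Q : Set P) ⊓ Subgroup.centralizer (R : Set P)) =
      Nat.card ↥(Q ⊓ R) * Nat.card ↥(Subgroup.centralizer (Q : Set P)) := by
  have hn : Subgroup.centralizer (Q : Set P) ≤ Subgroup.normalizer ((Q ⊓ R : Subgroup P) : Set P) :=
    le_trans (Subgroup.centralizer_le (SetLike.coe_subset_coe.2 inf_le_left))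
      (Subgroup.centralizer_le_normalizer _)
  have h1 := card_sup_mul_card_inf hn
  rw [sup_comm, mcl_eq_inf_sup hQ hR, inf_comm (Subgroup.centralizer (Q : Set P)) (Q ⊓ R),
    mcl_inf_eq hQ hR] at h1
  rw [h1, mul_comm]

theorem mcl_card_eq {Q R : Subgroup P} (hQ : IsMinimalCentrallyLarge Q) (hR : IsMinimalCentrallyLarge R) :
    Nat.card Q = Nat.card R ∧ Nat.card ↥(Subgroup.centralizer (Q : Set P)) =
      Nat.card ↥(Subgroup.centralizer (R : Set P)) := by
  have h1 := card_mcl_mul hQ hR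
  have h2 := card_mcl_mul hR hQ
  rw [inf_comm R Q, inf_comm (Subgroup.centralizer (R : Set P))] at h2
  have h3 : Nat.card Q * Nat.card ↥(Subgroup.centralizer (Q : Set P)) = maxCentralizerProduct P :=
    IsCentrallyLarge.large hQ.1
  have h4 : Nat.card R * Nat.card ↥(Subgroup.centralizer (R : Set P)) = maxCentralizerProduct P :=
    IsCentrallyLarge.large hR.1
  set d := Nat.card ↥(Subgroup.centralizer (Q : Set P) ⊓ Subgroup.centralizer (R : Set P)) with hd
  have pd : 0 < d := Nat.card_pos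
  have pQ : 0 < Nat.card Q := Nat.card_pos
  have pR : 0 < Nat.card R := Nat.card_pos
  have h5 : Nat.card Q * Nat.card Q * d = Nat.card R * Nat.card R * d := by
    calc Nat.card Q * Nat.card Q * d = Nat.card Q * (Nat.card Q * d) := by ring
      _ = Nat.card Q * (Nat.card ↥(Q ⊓ R) * Nat.card ↥(Subgroup.centralizer (Q : Set P))) := by rw [h1]
      _ = Nat.card ↥(Q ⊓ R) * (Nat.card Q * Nat.card ↥(Subgroup.centralizer (Q : Set P))) := by ring
      _ = Nat.card ↥(Q ⊓ R) * (Nat.card R * Nat.card ↥(Subgroup.centralizer (R : Set P))) := by rw [h3, h4]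
      _ = Nat.card R * (Nat.card ↥(Q ⊓ R) * Nat.card ↥(Subgroup.centralizer (R : Set P))) := by ring
      _ = Nat.card R * (Nat.card R * d) := by rw [h2]
      _ = _ := by ring
  have h6 : Nat.card Q * Nat.card Q = Nat.card R * Nat.card R := Nat.eq_of_mul_eq_mul_right pd h5
  have h7 : Nat.card Q = Nat.card R := Nat.mul_self_inj.1 h6
  refine ⟨h7, ?_⟩
  rw [← h4, h7] at h3
  exact Nat.eq_of_mul_eq_mul_left pR h3

theorem mcl_commutator_le {Q R : Subgroup P} (hQ : IsMinimalCentrallyLarge Q)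
    (hR : IsMinimalCentrallyLarge R) : ⁅Q, Q⁆ ≤ ⁅Q ⊓ R, Q ⊓ R⁆ := by
  rw [Subgroup.commutator_le]
  have hn : Subgroup.centralizer (Q : Set P) ≤ Subgroup.normalizer ((Q ⊓ R : Subgroup P) : Set P) :=
    le_trans (Subgroup.centralizer_le (SetLike.coe_subset_coe.2 inf_le_left))
      (Subgroup.centralizer_le_normalizer _)
  intro a ha b hb
  rw [← mcl_eq_inf_sup hQ hR] at ha hb
  obtain ⟨i, hi, z, hz, rfl⟩ := (mem_sup_of_le_normalizer' hn).1 ha
  obtain ⟨j, hj, w, hw, rfl⟩ := (mem_sup_of_le_normalizer' hn).1 hb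
  have hiQ := (Subgroup.mem_inf.1 hi).1
  have hjQ := (Subgroup.mem_inf.1 hj).1
  have hwQ : w ∈ Q := IsCentrallyLarge.centralizer_le hQ.1 hw
  have hzQ : z ∈ Q := IsCentrallyLarge.centralizer_le hQ.1 hz
  have c1 : ∀ y ∈ Q, y * z = z * y := fun y hy => Subgroup.mem_centralizer_iff.1 hz y hy
  have c2 : ∀ y ∈ Q, y * w = w * y := fun y hy => Subgroup.mem_centralizer_iff.1 hw y hy
  have e : ⁅i * z, j * w⁆ = ⁅i, j⁆ := by
    rw [commutatorElement_def, commutatorElement_def]
    calc (i * z) * (j * w) * (i * z)⁻¹ * (j * w)⁻¹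
        = i * (z * (j * w)) * z⁻¹ * i⁻¹ * w⁻¹ * j⁻¹ := by group
      _ = i * ((j * w) * z) * z⁻¹ * i⁻¹ * w⁻¹ * j⁻¹ := by rw [c1 (j * w) (Q.mul_mem hjQ hwQ)]
      _ = i * j * (w * i⁻¹) * w⁻¹ * j⁻¹ := by group
      _ = i * j * (i⁻¹ * w) * w⁻¹ * j⁻¹ := by rw [c2 i⁻¹ (Q.inv_mem hiQ)]
      _ = i * j * i⁻¹ * j⁻¹ := by group
  rw [e]
  exact Subgroup.commutator_mem_commutator hi hj

theorem mcl_commutator_eq {Q R : Subgroup P} (hQ : IsMinimalCentrallyLarge Q)
    (hR : IsMinimalCentrallyLarge R) : ⁅Q, Q⁆ = ⁅R, R⁆ := by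
  apply le_antisymm
  · exact (mcl_commutator_le hQ hR).trans (Subgroup.commutator_mono inf_le_right inf_le_right)
  · refine (mcl_commutator_le hR hQ).trans (Subgroup.commutator_mono inf_le_right inf_le_right)

theorem mcl_abelian_iff {Q : Subgroup P} (hQ : IsMinimalCentrallyLarge Q) (hab : IsMulCommutative Q)
    (X : Subgroup P) : IsMinimalCentrallyLarge X ↔ X ∈ maxAbelianSubgroups P := by
  have hCQ : Subgroup.centralizer (Q : Set P) = Q :=
    le_antisymm (IsCentrallyLarge.centralizer_le hQ.1) (isMulCommutative_iff.1 hab)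
  have hf : Nat.card Q * Nat.card Q = maxCentralizerProduct P := by
    have : cdm Q = maxCentralizerProduct P := IsCentrallyLarge.large hQ.1
    rw [cdm, hCQ] at this
    exact this
  have hle : ∀ B : Subgroup P, IsMulCommutative B → Nat.card B ≤ Nat.card Q := by
    intro B hB
    have h1 : cdm B ≤ maxCentralizerProduct P := cdm_le_max B
    have h2 : Nat.card B ≤ Nat.card ↥(Subgroup.centralizer (B : Set P)) :=
      Nat.card_mono (Set.toFinite _) (isMulCommutative_iff.1 hB)
    have h3 : Nat.card B * Nat.card B ≤ Nat.card Q * Nat.card Q := by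
      rw [hf]
      exact le_trans (Nat.mul_le_mul_left _ h2) h1
    exact Nat.mul_self_le_mul_self_iff.1 h3
  constructor
  · intro hX
    obtain ⟨h1, h2⟩ := mcl_card_eq hX hQ
    rw [hCQ] at h2
    have h3 : Subgroup.centralizer (X : Set P) = X :=
      Subgroup.eq_of_le_of_card_ge (IsCentrallyLarge.centralizer_le hX.1) (by rw [h2, h1])
    refine ⟨isMulCommutative_iff.2 h3.ge, ?_⟩
    intro B hB
    rw [h1]; exact hle B hB
  · intro hX
    have h1 : Nat.card X = Nat.card Q := le_antisymm (hle X hX.1) (hX.2 Q hab)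
    have hCX := maxAbelian_centralizer hX
    have h2 : IsCentrallyLarge X := by
      rw [isCentrallyLarge_iff]
      refine ⟨?_, hCX.le⟩
      rw [isCentralizerLarge_iff, cdm, hCX, h1, hf]
    refine ⟨h2, ?_⟩
    intro R' hR' hR'2
    have h3 : IsMulCommutative R' := by
      rw [isMulCommutative_iff]
      exact hR'.trans (le_trans (isMulCommutative_iff.1 hX.1)
        (Subgroup.centralizer_le (SetLike.coe_subset_coe.2 hR')))
    have h4 : Subgroup.centralizer (R' : Set P) = R' :=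
      le_antisymm (IsCentrallyLarge.centralizer_le hR'2) (isMulCommutative_iff.1 h3)
    have h5 : cdm R' = maxCentralizerProduct P := IsCentrallyLarge.large hR'2
    rw [cdm, h4, ← hf] at h5
    apply Subgroup.eq_of_le_of_card_ge hR'
    rw [h1]
    exact (Nat.mul_self_inj.1 h5).ge

/-! ### Itô's argument and the normalized minimal centrally large subgroup -/

/-- Itô: if `A`, `B` are abelian and `AB` is a group, the commutators `[a,b]` commute. -/
theorem ito {A B : Subgroup P} (hA : IsMulCommutative A) (hB : IsMulCommutative B)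
    (hAB : ((A ⊔ B : Subgroup P) : Set P) = (A : Set P) * (B : Set P))
    {a a' b b' : P} (ha : a ∈ A) (ha' : a' ∈ A) (hb : b ∈ B) (hb' : b' ∈ B) :
    Commute ⁅a, b⁆ ⁅a', b'⁆ := by
  have cA : ∀ x ∈ A, ∀ y ∈ A, x * y = y * x := fun x hx y hy => setLike_mul_comm hx hy
  have cB : ∀ x ∈ B, ∀ y ∈ B, x * y = y * x := fun x hx y hy => setLike_mul_comm hx hy
  have key : ∀ u ∈ A, ∀ v ∈ B, Commute ⁅a, b⁆ (u⁻¹ * v⁻¹ * u * v) := by
    intro u hu v hv
    -- u b u⁻¹ = b₂ a₂
    have h1 : (u * b * u⁻¹)⁻¹ ∈ ((A ⊔ B : Subgroup P) : Set P) :=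
      Subgroup.inv_mem _ (Subgroup.mul_mem _ (Subgroup.mul_mem _ (Subgroup.mem_sup_left hu)
        (Subgroup.mem_sup_right hb)) (Subgroup.inv_mem _ (Subgroup.mem_sup_left hu)))
    rw [hAB] at h1
    obtain ⟨s, hs, t, ht, hst⟩ := h1
    simp only at hst
    have e1 : u * b * u⁻¹ = t⁻¹ * s⁻¹ := by
      rw [← mul_inv_rev, hst, inv_inv]
    have h2 : v * a * v⁻¹ ∈ ((A ⊔ B : Subgroup P) : Set P) :=
      (Subgroup.mul_mem _ (Subgroup.mul_mem _ (Subgroup.mem_sup_right hv)
        (Subgroup.mem_sup_left ha)) (Subgroup.inv_mem _ (Subgroup.mem_sup_right hv)))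
    rw [hAB] at h2
    obtain ⟨c, hc, d, hd, hcd⟩ := h2
    simp only at hcd
    have hs' := A.inv_mem hs
    have ht' := B.inv_mem ht
    set b₂ := t⁻¹ with hb₂
    set a₂ := s⁻¹ with ha₂
    -- conj by u
    have f1 : ∀ x ∈ A, u * ⁅x, b⁆ * u⁻¹ = ⁅x, b₂⁆ := by
      intro x hx
      rw [commutatorElement_def, commutatorElement_def]
      calc u * (x * b * x⁻¹ * b⁻¹) * u⁻¹ = (u * x) * b * x⁻¹ * b⁻¹ * u⁻¹ := by group
        _ = (x * u) * b * x⁻¹ * b⁻¹ * u⁻¹ := by rw [cA u hu x hx]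
        _ = x * (u * b * u⁻¹) * (u * x⁻¹) * b⁻¹ * u⁻¹ := by group
        _ = x * (u * b * u⁻¹) * (x⁻¹ * u) * b⁻¹ * u⁻¹ := by rw [cA u hu x⁻¹ (A.inv_mem hx)]
        _ = x * (u * b * u⁻¹) * x⁻¹ * (u * b * u⁻¹)⁻¹ := by group
        _ = x * (b₂ * a₂) * x⁻¹ * (b₂ * a₂)⁻¹ := by rw [e1]
        _ = x * b₂ * (a₂ * x⁻¹) * a₂⁻¹ * b₂⁻¹ := by group
        _ = x * b₂ * (x⁻¹ * a₂) * a₂⁻¹ * b₂⁻¹ := by rw [cA a₂ hs' x⁻¹ (A.inv_mem hx)]
        _ = x * b₂ * x⁻¹ * b₂⁻¹ := by group
    have f2 : ∀ y ∈ B, v * ⁅a, y⁆ * v⁻¹ = ⁅c, y⁆ := by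
      intro y hy
      rw [commutatorElement_def, commutatorElement_def]
      calc v * (a * y * a⁻¹ * y⁻¹) * v⁻¹ = v * a * v⁻¹ * (v * y) * a⁻¹ * y⁻¹ * v⁻¹ := by group
        _ = v * a * v⁻¹ * (y * v) * a⁻¹ * y⁻¹ * v⁻¹ := by rw [cB v hv y hy]
        _ = (v * a * v⁻¹) * y * (v * a * v⁻¹)⁻¹ * (v * y⁻¹) * v⁻¹ := by group
        _ = (v * a * v⁻¹) * y * (v * a * v⁻¹)⁻¹ * (y⁻¹ * v) * v⁻¹ := by rw [cB v hv y⁻¹ (B.inv_mem hy)]
        _ = (c * d) * y * (c * d)⁻¹ * y⁻¹ := by rw [hcd]; group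
        _ = c * (d * y) * d⁻¹ * c⁻¹ * y⁻¹ := by group
        _ = c * (y * d) * d⁻¹ * c⁻¹ * y⁻¹ := by rw [cB d hd y hy]
        _ = c * y * c⁻¹ * y⁻¹ := by group
    have g1 : v * (u * ⁅a, b⁆ * u⁻¹) * v⁻¹ = ⁅c, b₂⁆ := by rw [f1 a ha, f2 b₂ ht']
    have g2 : u * (v * ⁅a, b⁆ * v⁻¹) * u⁻¹ = ⁅c, b₂⁆ := by rw [f2 b hb, f1 c hc]
    have g3 : v * (u * ⁅a, b⁆ * u⁻¹) * v⁻¹ = u * (v * ⁅a, b⁆ * v⁻¹) * u⁻¹ := by rw [g1, g2]
    -- ⁅a,b⁆ commutes with (v u)⁻¹ (u v)
    change ⁅a, b⁆ * (u⁻¹ * v⁻¹ * u * v) = (u⁻¹ * v⁻¹ * u * v) * ⁅a, b⁆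
    calc ⁅a, b⁆ * (u⁻¹ * v⁻¹ * u * v)
        = u⁻¹ * v⁻¹ * (v * (u * ⁅a, b⁆ * u⁻¹) * v⁻¹) * u * v := by group
      _ = u⁻¹ * v⁻¹ * (u * (v * ⁅a, b⁆ * v⁻¹) * u⁻¹) * u * v := by rw [g3]
      _ = (u⁻¹ * v⁻¹ * u * v) * ⁅a, b⁆ := by group
  have := key a'⁻¹ (A.inv_mem ha') b'⁻¹ (B.inv_mem hb')
  rw [inv_inv, inv_inv] at this
  rw [commutatorElement_def a' b']
  exact this

theorem isMinimalCentrallyLarge_conj {Q : Subgroup P} (hQ : IsMinimalCentrallyLarge Q) (x : P) :
    IsMinimalCentrallyLarge (Q.map (MulAut.conj x).toMonoidHom) := by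
  have key : ∀ (R : Subgroup P) (y : P), IsCentrallyLarge R → IsCentrallyLarge (R.map (MulAut.conj y).toMonoidHom) := by
    intro R y hR
    rw [isCentrallyLarge_iff] at hR ⊢
    obtain ⟨h1, h2⟩ := hR
    refine ⟨?_, ?_⟩
    · rw [isCentralizerLarge_iff, cdm] at h1 ⊢
      rw [← conj_centralizer, card_conj, card_conj]
      exact h1
    · rw [← conj_centralizer]
      exact conj_mono y h2
  refine ⟨key Q x hQ.1, ?_⟩
  intro R hR hRl
  have h1 := key R x⁻¹ hRl
  have h2 := hQ.2 _ (by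
    have := conj_mono x⁻¹ hR
    rwa [conj_inv_conj] at this) h1
  rw [← h2, conj_conj_inv]

/-- Replacement: abelian `U` between `V ∩ V'` and `C(Q ∩ Q')` has order at most `|V|`, and
equality gives a minimal centrally large subgroup with centralizer `U`. -/
theorem mcl_replace {Q R U : Subgroup P} (hQ : IsMinimalCentrallyLarge Q) (hR : IsMinimalCentrallyLarge R)
    (hU : IsMulCommutative U)
    (hU1 : Subgroup.centralizer (Q : Set P) ⊓ Subgroup.centralizer (R : Set P) ≤ U)
    (hU2 : U ≤ Subgroup.centralizer ((Q ⊓ R : Subgroup P) : Set P))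
    (hcard : Nat.card ↥(Subgroup.centralizer (Q : Set P)) ≤ Nat.card U) :
    ∃ S : Subgroup P, IsMinimalCentrallyLarge S ∧ Subgroup.centralizer (S : Set P) = U := by
  set V := Subgroup.centralizer (Q : Set P) with hV
  set V' := Subgroup.centralizer (R : Set P) with hV'
  set I := Q ⊓ R with hI
  have hIU : I ⊓ U = V ⊓ V' := by
    apply le_antisymm
    · rw [← mcl_inf_eq hQ hR]
      refine le_inf inf_le_left ?_
      refine le_trans ?_ (mcl_inf_centralizer_le hQ hR)
      exact le_inf inf_le_left (inf_le_right.trans hU2)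
    · refine le_inf ?_ hU1
      rw [← mcl_inf_eq hQ hR]
      exact inf_le_left
  set S := I ⊔ U with hS
  have hn : U ≤ Subgroup.normalizer (I : Set P) := hU2.trans (Subgroup.centralizer_le_normalizer _)
  have h1 := card_sup_mul_card_inf hn
  rw [sup_comm, inf_comm, hIU] at h1
  have h2 := card_mcl_mul hQ hR
  have hUC : U ≤ Subgroup.centralizer (S : Set P) := by
    rw [hS, centralizer_sup]
    exact le_inf hU2 (isMulCommutative_iff.1 hU)
  have hcU : Nat.card U ≤ Nat.card ↥(Subgroup.centralizer (S : Set P)) :=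
    Nat.card_mono (Set.toFinite _) hUC
  have hf : Nat.card Q * Nat.card V = maxCentralizerProduct P := IsCentrallyLarge.large hQ.1
  have hmax : Nat.card S * Nat.card ↥(Subgroup.centralizer (S : Set P)) ≤ maxCentralizerProduct P := cdm_le_max S
  set d := Nat.card ↥(V ⊓ V') with hd
  have pd : 0 < d := Nat.card_pos
  have pI : 0 < Nat.card I := Nat.card_pos
  have pS : 0 < Nat.card S := Nat.card_pos
  have pU : 0 < Nat.card U := Nat.card_pos
  -- |S| d = |U| |I|, |Q| d = |I| |V|
  have hQS : Nat.card Q ≤ Nat.card S := by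
    apply Nat.le_of_mul_le_mul_right _ pd
    rw [h1, h2, mul_comm (Nat.card U)]
    exact Nat.mul_le_mul_left _ hcard
  have h3 : Nat.card Q * Nat.card V ≤ Nat.card S * Nat.card U := Nat.mul_le_mul hQS hcard
  have h4 : Nat.card S * Nat.card ↥(Subgroup.centralizer (S : Set P)) = Nat.card S * Nat.card U := by
    apply le_antisymm
    · exact hmax.trans (hf ▸ h3)
    · exact Nat.mul_le_mul_left _ hcU
  have h5 : Nat.card ↥(Subgroup.centralizer (S : Set P)) = Nat.card U := Nat.eq_of_mul_eq_mul_left pS h4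
  have hCS : Subgroup.centralizer (S : Set P) = U :=
    (Subgroup.eq_of_le_of_card_ge hUC h5.le).symm
  have hSl : IsCentrallyLarge S := by
    rw [isCentrallyLarge_iff]
    refine ⟨isCentralizerLarge_of_le ?_, ?_⟩
    · rw [← hf, cdm, h4]; exact h3
    · rw [hCS]; exact le_sup_right
  obtain ⟨T, hTS, hT⟩ := exists_minimal_le hSl
  obtain ⟨h6, h7⟩ := mcl_card_eq hT hQ
  have h8 : cdm T = maxCentralizerProduct P := IsCentrallyLarge.large hT.1
  have h9 : Nat.card S = Nat.card Q := by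
    have h10 : Nat.card S * Nat.card V ≤ Nat.card Q * Nat.card V := by
      rw [hf]
      refine le_trans (Nat.mul_le_mul_left _ hcard) ?_
      rw [← h4]; exact hmax
    exact le_antisymm (Nat.le_of_mul_le_mul_right h10 Nat.card_pos) hQS
  have h11 : T = S := Subgroup.eq_of_le_of_card_ge hTS (by rw [h9, h6])
  exact ⟨S, h11 ▸ hT, hCS⟩

end Cfsg.Agent.Lib.ChermakDelgado
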