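import Cfsg.Agent.Lib.ChevCent4
set_option autoImplicit false

/-!
Centralizers of involutions in `F₄(2^f)` and `G₂(2^f)`.
-/

namespace Cfsg.Agent.Lib.ChevStd
open Cfsg.Lie Cfsg.Agent.Lib.ChevX Cfsg.Agent.Lib.ChevGood Cfsg.Agent.Lib.ChevRel Cfsg.Agent.Lib.ChevLev
open Cfsg.Agent.Lib.ChevU Cfsg.Agent.Lib.ChevH Cfsg.Agent.Lib.ChevN Cfsg.Agent.Lib.ChevBN Cfsg.Agent.Lib.ChevChar
open scoped MatrixGroups Matrix

/-- long roots of `F₄` -/
def lnF4 (r : ℕ) : Bool := [47, 46, 45, 43, 32, 42, 31, 41, 26, 30, 24, 25, 23, 22, 21, 17, 16, 6, 5, 15, 4, 2, 1, 0].contains r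
/-- long roots of `G₂` -/
def lnG2 (r : ℕ) : Bool := [11, 10, 6, 5, 1, 0].contains r

theorem wr_inv {D : ChevalleyDatum} {α : Type*} (G : Good D) {f : ℕ → α}
    (h : ∀ i < D.rank, ∀ r < D.nroots, f (D.reflectRoot i r) = f r) {w : List ℕ} (hw : Valid D w) {r : ℕ} (hr : r < D.nroots) :
    f (wr D w r) = f r := by
  induction w with
  | nil => rfl
  | cons i w ih => rw [wr_cons, h i hw.cons.1 _ (wr_lt G hw.cons.2 hr), ih hw.cons.2]

theorem lnF4_inv : ∀ i < chevF4.rank, ∀ r < chevF4.nroots, lnF4 (chevF4.reflectRoot i r) = lnF4 r := by decide +kernel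
theorem lnG2_inv : ∀ i < chevG2.rank, ∀ r < chevG2.nroots, lnG2 (chevG2.reflectRoot i r) = lnG2 r := by decide +kernel

/-! ### The class of `x₄₇(1) x₄₄(1)` in `F₄` -/

theorem cd1 : CD chevF4 [47, 44] [] (fun _ => 1) where
  nodup := by decide
  pos := by decide +kernel
  even := by decide +kernel
  act := by decide +kernel
  comb := by
    have G := ChevOkF4.good
    intro w hw h
    have h1 := wr_inv G lnF4_inv hw (show 47 < chevF4.nroots by decide)
    have h2 := wr_inv G lnF4_inv hw (show 44 < chevF4.nroots by decide)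
    have h3 := h 47 (by decide)
    have h4 := h 44 (by decide)
    simp only [List.append_nil, List.mem_cons, List.not_mem_nil, or_false] at h3 h4
    intro r hr
    simp only [List.mem_cons, List.not_mem_nil, or_false] at hr
    rcases hr with rfl | rfl
    · rcases h3 with h3 | h3
      · exact h3
      · rw [h3] at h1; exact absurd h1 (by decide)
    · rcases h4 with h4 | h4
      · rw [h4] at h2; exact absurd h2 (by decide)
      · exact h4
  dom := by decide +kernel
  dom0 := by decide +kernel

/-! ### The class of `x₃₉(1) x₄₅(1)` in `F₄` -/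

theorem pr2 : ∀ r ∈ [39, 45, 40, 44, 46, 47], ∀ s ∈ [39, 45, 40, 44, 46, 47], lnF4 r = false → lnF4 s = true → pr chevF4 r s = 0 → r = 39 ∧ s = 45 := by
  decide +kernel

theorem cd2 : CD chevF4 [39, 45] [40, 44, 46, 47] (fun r => if r = 39 then 3 else 2) where
  nodup := by decide
  pos := by decide +kernel
  even := by decide +kernel
  act := by decide +kernel
  comb := by
    have G := ChevOkF4.good
    intro w hw h
    have h1 := wr_inv G lnF4_inv hw (show 39 < chevF4.nroots by decide)
    have h2 := wr_inv G lnF4_inv hw (show 45 < chevF4.nroots by decide)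
    have h3 := h 39 (by decide)
    have h4 := h 45 (by decide)
    have h5 := pr_wr G hw (show 39 < chevF4.nroots by decide) (show 45 < chevF4.nroots by decide)
    have h6 : pr chevF4 39 45 = 0 := by decide +kernel
    have h7 := pr2 _ h3 _ h4 (by rw [h1]; decide) (by rw [h2]; decide) (by rw [h5, h6])
    intro r hr
    simp only [List.mem_cons, List.not_mem_nil, or_false] at hr
    rcases hr with rfl | rfl
    · exact h7.1
    · exact h7.2
  dom := by decide +kernel
  dom0 := by decide +kernel

/-! ### The class of `x₉(1)` in `G₂` -/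

theorem cd3 : CD chevG2 [9] [10, 11] (fun _ => 1) where
  nodup := by decide
  pos := by decide +kernel
  even := by decide +kernel
  act := by decide +kernel
  comb := by
    have G := ChevOkG2.good
    intro w hw h
    have h1 := wr_inv G lnG2_inv hw (show 9 < chevG2.nroots by decide)
    have h3 := h 9 (by decide)
    simp only [List.cons_append, List.nil_append, List.mem_cons, List.not_mem_nil, or_false] at h3
    intro r hr
    simp only [List.mem_cons, List.not_mem_nil, or_false] at hr
    subst hr
    rcases h3 with h3 | h3 | h3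
    · exact h3
    · rw [h3] at h1; exact absurd h1 (by decide)
    · rw [h3] at h1; exact absurd h1 (by decide)
  dom := by decide +kernel
  dom0 := by decide +kernel

end Cfsg.Agent.Lib.ChevStd
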