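import Cfsg.Agent.Lib.ChevCentF4
import Cfsg.Agent.Lib.ChevOkE6
import Cfsg.Agent.Lib.ChevOkE7
import Cfsg.Agent.Lib.ChevOkE8
set_option autoImplicit false

/-!
Centralizers of long root involutions of `E₆, E₇, E₈` in characteristic two.
-/

namespace Cfsg.Agent.Lib.ChevStd
open Cfsg.Lie Cfsg.Agent.Lib.ChevX Cfsg.Agent.Lib.ChevGood Cfsg.Agent.Lib.ChevRel Cfsg.Agent.Lib.ChevLev
open Cfsg.Agent.Lib.ChevU Cfsg.Agent.Lib.ChevH Cfsg.Agent.Lib.ChevN Cfsg.Agent.Lib.ChevBN Cfsg.Agent.Lib.ChevChar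
open scoped MatrixGroups Matrix

/-- all the finite checks for the centralizer of `x_r(1)` -/
def centB (D : ChevalleyDatum) (r i₀ : ℕ) (L : List ℕ) : Bool :=
  decide (D.IsPosRoot r) && decide (i₀ < D.rank) && decide (D.cartan i₀ r = 1) &&
  (List.range D.rank).all (fun i => decide (0 ≤ D.cartan i r) && (decide (i = i₀) ||
    (decide (D.cartan i r = 0) && decide (D.neg (D.simple i) ∈ L)))) &&
  (List.range D.nroots).all (fun s => !decide (D.IsPosRoot s) || evenB D r s) &&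
  L.all (fun s => decide (s < D.nroots) && evenB D r s)

theorem cent_of_centB {D : ChevalleyDatum} {F : Type*} [Field F] [CharP F 2] (G : Good D) {r i₀ : ℕ} {L : List ℕ}
    (h : centB D r i₀ L = true) (t : GL D.Idx F) (ht : (t : Matrix D.Idx D.Idx F) = D.x F r 1) :
    D.group F ⊓ Subgroup.centralizer {t} = D.posUnipotent F ⊔ Subgroup.closure {g : GL D.Idx F | ∃ s ∈ L, ∃ c : F, (g : Matrix D.Idx D.Idx F) = D.x F s c} := by
  unfold centB at h
  simp only [Bool.and_eq_true, decide_eq_true_eq, List.all_eq_true, List.mem_range, Bool.or_eq_true, Bool.not_eq_true'] at h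
  obtain ⟨⟨⟨⟨⟨h1, h2⟩, h3⟩, h4⟩, h5⟩, h6⟩ := h
  have hz : t = xg D F r 1 := (coe_eq_x_iff G).mp ht
  have hU : ∀ s, D.IsPosRoot s → ∀ c u : F, xg D F s u * xg D F r c = xg D F r c * xg D F s u := by
    intro s hs c u
    refine comm_of_evenB G h1.1 hs.1 ?_ c u
    rcases h5 s hs.1 with h | h
    · rw [decide_eq_false_iff_not] at h; exact absurd hs h
    · exact h
  refine centralizer_eq G h1 (fun i hi => (h4 i hi).1) h2 h3 (fun i hi hne => ?_) hU (fun i hi hne c u => ?_) hz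
    le_sup_left (fun i hi hne c => ?_) ?_
  · exact ((h4 i hi).2.resolve_left hne).1
  · obtain ⟨-, h7⟩ := (h4 i hi).2.resolve_left hne
    exact comm_of_evenB G h1.1 (h6 _ h7).1 (h6 _ h7).2 c u
  · obtain ⟨-, h7⟩ := (h4 i hi).2.resolve_left hne
    refine Subgroup.mem_sup_right (Subgroup.subset_closure ⟨_, h7, c, coe_xg G _ _⟩)
  · refine sup_le (U_le_inf G fun s hs u => by rw [hz]; exact hU s hs 1 u) ?_
    rw [Subgroup.closure_le]
    rintro g ⟨s, hs, c, hg⟩
    rw [(coe_eq_x_iff G).mp hg]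
    refine le_group_inf G (L := L) (z := t) (fun s hs => (h6 s hs).1) (fun s hs u => ?_) s hs ((mem_rootSubgroup_iff G).mpr ⟨c, rfl⟩)
    rw [hz]; exact comm_of_evenB G h1.1 (h6 s hs).1 (h6 s hs).2 1 u

theorem centB_E6 : centB chevE6 (chevE6.nroots - 1) 1 [15, 29, 32, 34, 35] = true := by decide +kernel
theorem centB_E7 : centB chevE7 (chevE7.nroots - 1) 0 [47, 52, 56, 59, 61, 62] = true := by decide +kernel
theorem centB_E8 : centB chevE8 (chevE8.nroots - 1) 7 [77, 98, 104, 109, 113, 116, 118] = true := by decide +kernel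

end Cfsg.Agent.Lib.ChevStd
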