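import Cfsg.Agent.Lib.ChevCent5
import Cfsg.Agent.Lib.ChevCentE
set_option autoImplicit false

/-!
Centralizers of involutions in `F₄(2^f)` and `G₂(2^f)`: conclusions.
-/

namespace Cfsg.Agent.Lib.ChevStd
open Cfsg.Lie Cfsg.Agent.Lib.ChevX Cfsg.Agent.Lib.ChevGood Cfsg.Agent.Lib.ChevRel Cfsg.Agent.Lib.ChevLev
open Cfsg.Agent.Lib.ChevU Cfsg.Agent.Lib.ChevH Cfsg.Agent.Lib.ChevN Cfsg.Agent.Lib.ChevBN Cfsg.Agent.Lib.ChevChar
open scoped MatrixGroups Matrix

variable {F : Type*} [Field F] [CharP F 2]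

section
variable {D : ChevalleyDatum} (G : Good D)
include G

/-- `X_s` centralizes the product over `A` -/
theorem comm_pl_of_even {A : List ℕ} {s : ℕ} (hs : s < D.nroots) (hA : ∀ r ∈ A, r < D.nroots ∧ evenB D r s = true)
    (c : ℕ → F) (u : F) : xg D F s u * pl D F A c = pl D F A c * xg D F s u := by
  have h : Commute (xg D F s u) (pl D F A c) := by
    unfold pl
    refine Commute.list_prod_right _ _ fun y hy => ?_
    obtain ⟨r, hr, rfl⟩ := List.mem_map.mp hy
    exact comm_of_evenB G (hA r hr).1 hs (hA r hr).2 _ _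
  exact h.eq

theorem mem_inf_of_even {A : List ℕ} {s : ℕ} (hs : s < D.nroots) (hA : ∀ r ∈ A, r < D.nroots ∧ evenB D r s = true)
    (u : F) : xg D F s u ∈ D.group F ⊓ Subgroup.centralizer {pl D F A (fun _ => 1)} := by
  refine ⟨?_, ?_⟩
  · rw [group_eq G]; exact xg_mem_XS (S := {r | r < D.nroots}) hs u
  · exact Subgroup.mem_centralizer_singleton_iff.mpr (comm_pl_of_even G hs hA _ u)

end

theorem ev1 : ∀ s < 48, chevF4.IsPosRoot s ∨ s ∈ [20, 22] → ∀ r ∈ [47, 44], r < chevF4.nroots ∧ evenB chevF4 r s = true := by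
  decide +kernel

theorem cent_F4_w {w : GL chevF4.Idx F} (hw : (w : Matrix chevF4.Idx chevF4.Idx F) = chevF4.x F 47 1 * chevF4.x F 44 1) :
    chevF4.group F ⊓ Subgroup.centralizer {w} = chevF4.posUnipotent F ⊔ chevF4.rootSubgroup F 20 ⊔ chevF4.rootSubgroup F 22 := by
  have G := ChevOkF4.good
  obtain ⟨s0, s1, s2, s3⟩ := sF4
  have hw' : w = pl chevF4 F [47, 44] (fun _ => 1) := by
    apply Units.ext
    rw [hw, pl_cons, pl_cons, pl_nil, mul_one, Units.val_mul, coe_xg G, coe_xg G]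
  rw [hw']
  have hle : chevF4.posUnipotent F ⊔ chevF4.rootSubgroup F 20 ⊔ chevF4.rootSubgroup F 22 ≤
      chevF4.group F ⊓ Subgroup.centralizer {pl chevF4 F [47, 44] (fun _ => 1)} := by
    refine sup_le (sup_le ?_ ?_) ?_
    · rw [posUnipotent_eq G]
      exact XS_le fun s hs u => mem_inf_of_even G hs.1 (ev1 s hs.1 (Or.inl hs)) u
    · rw [rootSubgroup_eq G]
      refine XS_le fun s hs u => ?_
      rw [Set.mem_singleton_iff] at hs; subst hs
      exact mem_inf_of_even G (by decide) (ev1 20 (by decide) (Or.inr (by decide))) u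
    · rw [rootSubgroup_eq G]
      refine XS_le fun s hs u => ?_
      rw [Set.mem_singleton_iff] at hs; subst hs
      exact mem_inf_of_even G (by decide) (ev1 22 (by decide) (Or.inr (by decide))) u
  have hJ : ∀ i < chevF4.rank, (∀ r ∈ [47, 44], chevF4.cartan i r = 0) → i = 1 ∨ i = 2 := by decide +kernel
  have hgen : ∀ i < chevF4.rank, (∀ r ∈ [47, 44], chevF4.cartan i r = 0) →
      (∀ t : F, xg chevF4 F (chevF4.simple i) t ∈ chevF4.posUnipotent F ⊔ chevF4.rootSubgroup F 20 ⊔ chevF4.rootSubgroup F 22) ∧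
      ∀ t : F, xg chevF4 F (chevF4.neg (chevF4.simple i)) t ∈ chevF4.posUnipotent F ⊔ chevF4.rootSubgroup F 20 ⊔ chevF4.rootSubgroup F 22 := by
    intro i hi h
    refine ⟨fun t => Subgroup.mem_sup_left (Subgroup.mem_sup_left (xg_mem_U G (simple_isPos G hi) t)), fun t => ?_⟩
    rcases hJ i hi h with rfl | rfl
    · rw [s1]; exact Subgroup.mem_sup_left (Subgroup.mem_sup_right ((mem_rootSubgroup_iff G).mpr ⟨t, rfl⟩))
    · rw [s2]; exact Subgroup.mem_sup_right ((mem_rootSubgroup_iff G).mpr ⟨t, rfl⟩)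
  refine cd1.centralizer_eq G (Q := []) hle le_rfl (fun i hi h => ?_) ?_ (fun r hr => absurd hr List.not_mem_nil) ?_
    ?_ ?_
  · exact ng_mem_of G (hgen i hi h).1 (hgen i hi h).2 1
  · exact le_trans (le_trans le_sup_left le_sup_left) le_sup_left
  · intro g _
    rw [Subgroup.mem_normalizer_iff]
    intro h
    have h1 : XS chevF4 F {x | x ∈ ([] : List ℕ)} = ⊥ := by
      rw [eq_bot_iff]; exact XS_le fun r hr => absurd hr List.not_mem_nil
    rw [h1, Subgroup.mem_bot, Subgroup.mem_bot]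
    exact ⟨fun e => by rw [e]; group, fun e => by
      have h2 : h = g⁻¹ * (g * h * g⁻¹) * g := by group
      rw [h2, e]; group⟩
  · intro q hq _
    have h1 : XS chevF4 F {x | x ∈ ([] : List ℕ)} = ⊥ := by
      rw [eq_bot_iff]; exact XS_le fun r hr => absurd hr List.not_mem_nil
    rw [h1, Subgroup.mem_bot] at hq
    rw [hq]; exact one_mem _
  · refine H_mem_of G (by decide) hgen ?_
    intro c hc h i hi hi'
    have e1 := h 47 (by decide)
    have e2 := h 44 (by decide)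
    have c1 : chevF4.cartan 0 47 = 0 ∧ chevF4.cartan 1 47 = 0 ∧ chevF4.cartan 2 47 = 0 ∧ chevF4.cartan 3 47 = 1 := by decide +kernel
    have c2 : chevF4.cartan 0 44 = 1 ∧ chevF4.cartan 1 44 = 0 ∧ chevF4.cartan 2 44 = 0 ∧ chevF4.cartan 3 44 = 0 := by decide +kernel
    change ∏ i ∈ Finset.range 4, _ = _ at e1 e2
    rw [Finset.prod_range_succ, Finset.prod_range_succ, Finset.prod_range_succ, Finset.prod_range_succ, Finset.prod_range_zero] at e1 e2
    rw [c1.1, c1.2.1, c1.2.2.1, c1.2.2.2] at e1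
    rw [c2.1, c2.2.1, c2.2.2.1, c2.2.2.2] at e2
    simp only [zpow_zero, zpow_one, one_mul, mul_one] at e1 e2
    have hi4 : i < 4 := hi
    interval_cases i
    · exact e2
    · exact absurd (by decide +kernel) hi'
    · exact absurd (by decide +kernel) hi'
    · exact e1

/-- the remaining positive roots -/
def Q2 : List ℕ := [28, 29, 30, 31, 32, 35, 36, 37, 38, 39, 40, 41, 42, 43, 44, 45, 46, 47]

theorem ev2 : ∀ s ∈ [33, 14, 24, 23] ++ Q2, s < chevF4.nroots ∧ ∀ r ∈ [39, 45], r < chevF4.nroots ∧ evenB chevF4 r s = true := by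
  decide +kernel

theorem act2 : ∀ s ∈ [33, 14, 24, 23], ∀ r ∈ [25, 26, 27, 34] ++ Q2, actB chevF4 s r ([25, 26, 27, 34] ++ Q2) = true := by
  decide +kernel

theorem pos2 : ∀ s < 48, chevF4.IsPosRoot s → s ∈ [33, 24] ∨ s ∈ [25, 26, 27, 34] ++ Q2 := by decide +kernel
theorem pos2' : ∀ s < 48, chevF4.IsPosRoot s → s ∉ [27, 25, 34, 26] → s ∈ [33, 24] ++ Q2 := by decide +kernel
theorem pos2'' : ∀ s ∈ [25, 26, 27, 34] ++ Q2, chevF4.IsPosRoot s := by decide +kernel
theorem pos2''' : ∀ s ∈ Q2, chevF4.IsPosRoot s ∧ s ∉ [27, 25, 34, 26] := by decide +kernel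
theorem act2' : ∀ m ∈ [25, 26, 27, 34], ∀ r ∈ [25, 26, 27, 34] ++ Q2, actB chevF4 m r Q2 = true := by decide +kernel

/-- targets -/
def tau2 (o : ℕ) : ℕ := if o = 27 then 40 else if o = 34 then 44 else if o = 25 then 46 else 47

theorem tau2a : ∀ o ∈ [25, 26, 27, 34], tau2 o ∈ [40, 44, 46, 47] ∧ [39, 45].flatMap (oddT chevF4 o) = [(tau2 o, 1)] := by
  decide +kernel
theorem tau2b : ∀ o ∈ [25, 26, 27, 34], ∀ o' ∈ [25, 26, 27, 34], evenB chevF4 (tau2 o) o' = true := by decide +kernel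
theorem tau2c : ∀ o ∈ [25, 26, 27, 34], chevF4.IsPosRoot o ∧ (∀ r ∈ [39, 45], r ≠ o) := by decide +kernel

theorem cent_F4_v {v : GL chevF4.Idx F} (hv : (v : Matrix chevF4.Idx chevF4.Idx F) = chevF4.x F 39 1 * chevF4.x F 45 1) :
    chevF4.group F ⊓ Subgroup.centralizer {v} = chevF4.rootSubgroup F 33 ⊔ chevF4.rootSubgroup F 14 ⊔ chevF4.rootSubgroup F 24 ⊔ chevF4.rootSubgroup F 23 ⊔
      Subgroup.closure {g : GL chevF4.Idx F | ∃ (r : ℕ) (c : F), chevF4.IsPosRoot r ∧ r ∉ [27, 25, 34, 26] ∧ (g : Matrix chevF4.Idx chevF4.Idx F) = chevF4.x F r c} := by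
  have G := ChevOkF4.good
  obtain ⟨s0, s1, s2, s3⟩ := sF4
  have p0 : chevF4.simple 0 = 33 := by decide
  have p3 : chevF4.simple 3 = 24 := by decide
  have hv' : v = pl chevF4 F [39, 45] (fun _ => 1) := by
    apply Units.ext
    rw [hv, pl_cons, pl_cons, pl_nil, mul_one, Units.val_mul, coe_xg G, coe_xg G]
  rw [hv']
  set M := chevF4.rootSubgroup F 33 ⊔ chevF4.rootSubgroup F 14 ⊔ chevF4.rootSubgroup F 24 ⊔ chevF4.rootSubgroup F 23 with hM
  set N := Subgroup.closure {g : GL chevF4.Idx F | ∃ (r : ℕ) (c : F), chevF4.IsPosRoot r ∧ r ∉ [27, 25, 34, 26] ∧ (g : Matrix chevF4.Idx chevF4.Idx F) = chevF4.x F r c} with hN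
  have hMX : M = XS chevF4 F {s | s ∈ [33, 14, 24, 23]} := by
    apply le_antisymm
    · refine sup_le (sup_le (sup_le ?_ ?_) ?_) ?_ <;>
      · rw [rootSubgroup_eq G]
        exact XS_mono (by intro s hs; rw [Set.mem_singleton_iff] at hs; subst hs; show _ ∈ [33, 14, 24, 23]; decide)
    · refine XS_le fun s hs t => ?_
      have hs : s ∈ [33, 14, 24, 23] := hs
      simp only [List.mem_cons, List.not_mem_nil, or_false] at hs
      rcases hs with rfl | rfl | rfl | rfl
      · exact Subgroup.mem_sup_left (Subgroup.mem_sup_left (Subgroup.mem_sup_left ((mem_rootSubgroup_iff G).mpr ⟨t, rfl⟩)))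
      · exact Subgroup.mem_sup_left (Subgroup.mem_sup_left (Subgroup.mem_sup_right ((mem_rootSubgroup_iff G).mpr ⟨t, rfl⟩)))
      · exact Subgroup.mem_sup_left (Subgroup.mem_sup_right ((mem_rootSubgroup_iff G).mpr ⟨t, rfl⟩))
      · exact Subgroup.mem_sup_right ((mem_rootSubgroup_iff G).mpr ⟨t, rfl⟩)
  have hNmem : ∀ r ∈ Q2, ∀ t : F, xg chevF4 F r t ∈ N := fun r hr t =>
    Subgroup.subset_closure ⟨r, t, (pos2''' r hr).1, (pos2''' r hr).2, coe_xg G _ _⟩
  have hle : M ⊔ N ≤ chevF4.group F ⊓ Subgroup.centralizer {pl chevF4 F [39, 45] (fun _ => 1)} := by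
    refine sup_le ?_ ?_
    · rw [hMX]
      refine XS_le fun s hs u => ?_
      have h1 := ev2 s (List.mem_append_left _ hs)
      exact mem_inf_of_even G h1.1 h1.2 u
    · rw [hN, Subgroup.closure_le]
      rintro g ⟨r, c, h1, h2, h3⟩
      have h4 : r ∈ [33, 24] ++ Q2 := pos2' r h1.1 h1 h2
      have h5 : r ∈ [33, 14, 24, 23] ++ Q2 := by
        rcases List.mem_append.mp h4 with h | h
        · refine List.mem_append_left _ ?_
          revert h; simp only [List.mem_cons, List.not_mem_nil, or_false]; omega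
        · exact List.mem_append_right _ h
      rw [(coe_eq_x_iff G).mp h3]
      exact mem_inf_of_even G (ev2 r h5).1 (ev2 r h5).2 c
  have hJ : ∀ i < chevF4.rank, (∀ r ∈ [39, 45], chevF4.cartan i r = 0) → i = 0 ∨ i = 3 := by decide +kernel
  have hgen : ∀ i < chevF4.rank, (∀ r ∈ [39, 45], chevF4.cartan i r = 0) →
      (∀ t : F, xg chevF4 F (chevF4.simple i) t ∈ M) ∧
      ∀ t : F, xg chevF4 F (chevF4.neg (chevF4.simple i)) t ∈ M := by
    intro i hi h
    rw [hMX]
    rcases hJ i hi h with rfl | rfl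
    · rw [s0, p0]
      exact ⟨fun t => xg_mem_XS (S := {s | s ∈ [33, 14, 24, 23]}) (by show 33 ∈ [33, 14, 24, 23]; decide) t,
        fun t => xg_mem_XS (S := {s | s ∈ [33, 14, 24, 23]}) (by show 14 ∈ [33, 14, 24, 23]; decide) t⟩
    · rw [s3, p3]
      exact ⟨fun t => xg_mem_XS (S := {s | s ∈ [33, 14, 24, 23]}) (by show 24 ∈ [33, 14, 24, 23]; decide) t,
        fun t => xg_mem_XS (S := {s | s ∈ [33, 14, 24, 23]}) (by show 23 ∈ [33, 14, 24, 23]; decide) t⟩
  refine cd2.centralizer_eq G (M := M) (Q := [25, 26, 27, 34] ++ Q2) hle le_sup_left (fun i hi h => ?_) ?_ pos2'' ?_ ?_ ?_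
  · exact ng_mem_of G (hgen i hi h).1 (hgen i hi h).2 1
  · rw [posUnipotent_eq G]
    refine XS_le fun s hs t => ?_
    rcases pos2 s hs.1 hs with h | h
    · refine Subgroup.mem_sup_left ?_
      rw [hMX]
      refine xg_mem_XS (S := {s | s ∈ [33, 14, 24, 23]}) ?_ t
      show s ∈ [33, 14, 24, 23]
      revert h; simp only [List.mem_cons, List.not_mem_nil, or_false]; omega
    · exact Subgroup.mem_sup_right (xg_mem_XS (S := {x | x ∈ [25, 26, 27, 34] ++ Q2}) h t)
  · rw [hMX]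
    exact normalizes_of_actB G (fun r hr => (pos2'' r hr).1) (fun s hs => (ev2 s (List.mem_append_left _ hs)).1) act2
  · exact cd2.Q_part G (O := [25, 26, 27, 34]) (Q := Q2) (by decide) tau2c tau2a (by decide) tau2b
      (fun m hm => (pos2''' m hm).1.1) act2' hle fun r hr t => Subgroup.mem_sup_right (hNmem r hr t)
  · refine H_mem_of G (by decide) (fun i hi h => ⟨fun t => Subgroup.mem_sup_left ((hgen i hi h).1 t), fun t => Subgroup.mem_sup_left ((hgen i hi h).2 t)⟩) ?_
    intro c hc h i hi hi'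
    have e1 := h 39 (by decide)
    have e2 := h 45 (by decide)
    have c1 : chevF4.cartan 0 39 = 0 ∧ chevF4.cartan 1 39 = -1 ∧ chevF4.cartan 2 39 = 1 ∧ chevF4.cartan 3 39 = 0 := by decide +kernel
    have c2 : chevF4.cartan 0 45 = 0 ∧ chevF4.cartan 1 45 = 2 ∧ chevF4.cartan 2 45 = -1 ∧ chevF4.cartan 3 45 = 0 := by decide +kernel
    change ∏ i ∈ Finset.range 4, _ = _ at e1 e2
    rw [Finset.prod_range_succ, Finset.prod_range_succ, Finset.prod_range_succ, Finset.prod_range_succ, Finset.prod_range_zero] at e1 e2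
    rw [c1.1, c1.2.1, c1.2.2.1, c1.2.2.2] at e1
    rw [c2.1, c2.2.1, c2.2.2.1, c2.2.2.2] at e2
    have h1 : c 1 ≠ 0 := hc 1 (by decide)
    have h2 : c 2 ≠ 0 := hc 2 (by decide)
    simp only [zpow_zero, zpow_one, one_mul, mul_one, zpow_neg] at e1 e2
    have h3 : c 2 = c 1 := by
      field_simp at e1
      exact e1
    have h4 : c 1 = 1 := by
      rw [h3] at e2
      have h5 : c 1 ^ (2 : ℤ) * (c 1)⁻¹ = c 1 := by
        rw [zpow_ofNat]; field_simp
      rwa [h5] at e2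
    have hi4 : i < 4 := hi
    interval_cases i
    · exact absurd (by decide +kernel) hi'
    · exact h4
    · rw [h3, h4]
    · exact absurd (by decide +kernel) hi'

/-! ### `G₂` -/

theorem posG2 : ∀ s < 12, chevG2.IsPosRoot s → s = 6 ∨ s ∈ [7, 8] ++ [9, 10, 11] := by decide +kernel
theorem evG2 : ∀ s ∈ [9, 10, 11, 6, 5], s < chevG2.nroots ∧ ∀ r ∈ [9], r < chevG2.nroots ∧ evenB chevG2 r s = true := by decide +kernel
theorem sG2' : chevG2.simple 0 = 7 ∧ chevG2.simple 1 = 6 ∧ chevG2.neg (chevG2.simple 0) = 4 ∧ chevG2.neg (chevG2.simple 1) = 5 := by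
  decide +kernel

theorem actG2 : ∀ s ∈ [6, 5], ∀ r ∈ [7, 8] ++ [9, 10, 11], actB chevG2 s r ([7, 8] ++ [9, 10, 11]) = true := by decide +kernel

theorem cent_G2_t {t : GL chevG2.Idx F} (ht : (t : Matrix chevG2.Idx chevG2.Idx F) = chevG2.x F 9 1) :
    chevG2.group F ⊓ Subgroup.centralizer {t} = chevG2.rootSubgroup F 9 ⊔ chevG2.rootSubgroup F 10 ⊔ chevG2.rootSubgroup F 11 ⊔ chevG2.rootSubgroup F 6 ⊔ chevG2.rootSubgroup F 5 := by
  have G := ChevOkG2.good
  obtain ⟨p0, p1, s0, s1⟩ := sG2'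
  have ht' : t = pl chevG2 F [9] (fun _ => 1) := by
    apply Units.ext
    rw [ht, pl_cons, pl_nil, mul_one, coe_xg G]
  rw [ht']
  have hKX : chevG2.rootSubgroup F 9 ⊔ chevG2.rootSubgroup F 10 ⊔ chevG2.rootSubgroup F 11 ⊔ chevG2.rootSubgroup F 6 ⊔ chevG2.rootSubgroup F 5 =
      XS chevG2 F {s | s ∈ [9, 10, 11, 6, 5]} := by
    apply le_antisymm
    · refine sup_le (sup_le (sup_le (sup_le ?_ ?_) ?_) ?_) ?_ <;>
      · rw [rootSubgroup_eq G]
        exact XS_mono (by intro s hs; rw [Set.mem_singleton_iff] at hs; subst hs; show _ ∈ [9, 10, 11, 6, 5]; decide)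
    · refine XS_le fun s hs t => ?_
      have hs : s ∈ [9, 10, 11, 6, 5] := hs
      simp only [List.mem_cons, List.not_mem_nil, or_false] at hs
      rcases hs with rfl | rfl | rfl | rfl | rfl
      · exact Subgroup.mem_sup_left (Subgroup.mem_sup_left (Subgroup.mem_sup_left (Subgroup.mem_sup_left ((mem_rootSubgroup_iff G).mpr ⟨t, rfl⟩))))
      · exact Subgroup.mem_sup_left (Subgroup.mem_sup_left (Subgroup.mem_sup_left (Subgroup.mem_sup_right ((mem_rootSubgroup_iff G).mpr ⟨t, rfl⟩))))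
      · exact Subgroup.mem_sup_left (Subgroup.mem_sup_left (Subgroup.mem_sup_right ((mem_rootSubgroup_iff G).mpr ⟨t, rfl⟩)))
      · exact Subgroup.mem_sup_left (Subgroup.mem_sup_right ((mem_rootSubgroup_iff G).mpr ⟨t, rfl⟩))
      · exact Subgroup.mem_sup_right ((mem_rootSubgroup_iff G).mpr ⟨t, rfl⟩)
  rw [hKX]
  set K := XS chevG2 F {s | s ∈ [9, 10, 11, 6, 5]} with hK
  have hmem : ∀ s ∈ [9, 10, 11, 6, 5], ∀ t : F, xg chevG2 F s t ∈ K := fun s hs t => xg_mem_XS (S := {s | s ∈ [9, 10, 11, 6, 5]}) hs t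
  have hle : K ≤ chevG2.group F ⊓ Subgroup.centralizer {pl chevG2 F [9] (fun _ => 1)} :=
    XS_le fun s hs u => mem_inf_of_even G (evG2 s hs).1 (evG2 s hs).2 u
  have hJ : ∀ i < chevG2.rank, (∀ r ∈ [9], chevG2.cartan i r = 0) → i = 1 := by decide +kernel
  set M := XS chevG2 F {s | s ∈ [6, 5]} with hM
  have hMK : M ≤ K := XS_mono (by intro s hs; have hs : s ∈ [6, 5] := hs; show s ∈ [9, 10, 11, 6, 5]; revert hs; simp only [List.mem_cons, List.not_mem_nil, or_false]; omega)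
  have hgen : ∀ i < chevG2.rank, (∀ r ∈ [9], chevG2.cartan i r = 0) →
      (∀ t : F, xg chevG2 F (chevG2.simple i) t ∈ M) ∧
      ∀ t : F, xg chevG2 F (chevG2.neg (chevG2.simple i)) t ∈ M := by
    intro i hi h
    rw [hJ i hi h, s1, p1]
    exact ⟨fun t => xg_mem_XS (S := {s | s ∈ [6, 5]}) (by show 6 ∈ [6, 5]; decide) t,
      fun t => xg_mem_XS (S := {s | s ∈ [6, 5]}) (by show 5 ∈ [6, 5]; decide) t⟩
  refine cd3.centralizer_eq G (M := M) (Q := [7, 8] ++ [9, 10, 11]) hle hMK (fun i hi h => ?_) ?_ ?_ ?_ ?_ ?_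
  · exact ng_mem_of G (hgen i hi h).1 (hgen i hi h).2 1
  · rw [posUnipotent_eq G]
    refine XS_le fun s hs t => ?_
    rcases posG2 s hs.1 hs with h | h
    · refine Subgroup.mem_sup_left ?_
      subst h
      exact xg_mem_XS (S := {s | s ∈ [6, 5]}) (by show 6 ∈ [6, 5]; decide) t
    · exact Subgroup.mem_sup_right (xg_mem_XS (S := {x | x ∈ [7, 8] ++ [9, 10, 11]}) h t)
  · decide +kernel
  · exact normalizes_of_actB G (by decide +kernel) (fun s hs => (evG2 s (by
      have hs : s ∈ [6, 5] := hs; revert hs; simp only [List.mem_cons, List.not_mem_nil, or_false]; omega)).1)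
      (fun s hs => actG2 s hs)
  · exact cd3.Q_part G (O := [7, 8]) (Q := [9, 10, 11]) (by decide) (by decide +kernel) (τ := fun o => if o = 7 then 10 else 11)
      (by decide +kernel) (by decide) (by decide +kernel)
      (by decide) (by decide +kernel) hle fun r hr t => hmem r (by revert hr; simp only [List.mem_cons, List.not_mem_nil, or_false]; omega) t
  · refine H_mem_of G (by decide) (fun i hi h => ⟨fun t => hMK ((hgen i hi h).1 t), fun t => hMK ((hgen i hi h).2 t)⟩) ?_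
    intro c hc h i hi hi'
    have e1 := h 9 (by decide)
    have c1 : chevG2.cartan 0 9 = 1 ∧ chevG2.cartan 1 9 = 0 := by decide +kernel
    change ∏ i ∈ Finset.range 2, _ = _ at e1
    rw [Finset.prod_range_succ, Finset.prod_range_succ, Finset.prod_range_zero] at e1
    rw [c1.1, c1.2] at e1
    simp only [zpow_zero, zpow_one, one_mul, mul_one] at e1
    have hi4 : i < 2 := hi
    interval_cases i
    · exact e1
    · exact absurd (by decide +kernel) hi'

theorem centB_G2 : centB chevG2 11 1 [4] = true := by decide +kernel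

theorem cent_G2_z {z : GL chevG2.Idx F} (hz : (z : Matrix chevG2.Idx chevG2.Idx F) = chevG2.x F 11 1) :
    chevG2.group F ⊓ Subgroup.centralizer {z} = chevG2.posUnipotent F ⊔ chevG2.rootSubgroup F 4 := by
  have G := ChevOkG2.good
  rw [cent_of_centB G centB_G2 z hz]
  congr 1
  apply le_antisymm
  · rw [Subgroup.closure_le]
    rintro g ⟨s, hs, c, hg⟩
    rw [List.mem_singleton] at hs
    subst hs
    exact (mem_rootSubgroup_iff G).mpr ⟨c, (coe_eq_x_iff G).mp hg⟩
  · intro g hg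
    obtain ⟨c, rfl⟩ := (mem_rootSubgroup_iff G).mp hg
    exact Subgroup.subset_closure ⟨4, List.mem_singleton_self _, c, coe_xg G _ _⟩

end Cfsg.Agent.Lib.ChevStd
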