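import Cfsg.Agent.Lib.ChevPG9

set_option autoImplicit false
set_option maxRecDepth 1000000

/-!
# Elements of large order in G₂(q) (helper40)
-/

namespace Cfsg.Agent.Lib.ChevPG
open Cfsg.Lie Cfsg.Agent.Lib.ChevX Cfsg.Agent.Lib.ChevGood Cfsg.Agent.Lib.ChevRel Cfsg.Agent.Lib.ChevNPerm
  Cfsg.Agent.Lib.ChevPoinc Cfsg.Agent.Lib.ChevClosed Cfsg.Agent.Lib.ChevSS Cfsg.Agent.Lib.ChevFix Cfsg.Agent.Lib.ChevTorus
  Cfsg.Agent.Lib.AltW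
open Cfsg.Agent.Lib.ChevBruhat (Listed)

/-! ### regular unipotent elements over prime fields -/

local instance fact5 : Fact (Nat.Prime 5) := ⟨by norm_num⟩

def vec (p : ℕ) (l : List ℕ) : chevG2.Idx → ZMod p
  | Sum.inl i => ((l.getD i 0 : ℕ) : ZMod p)
  | Sum.inr s => ((l.getD (s + 2) 0 : ℕ) : ZMod p)

theorem c2_0 : (chevG2.x (ZMod 2) 7 1).mulVec (vec 2 [0, 1, 0, 0, 0, 0, 0, 0, 0, 0, 0, 0, 0, 0]) = vec 2 [0, 1, 0, 0, 0, 0, 0, 0, 0, 1, 0, 0, 0, 0] := by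
  funext i; revert i; decide +kernel
theorem c2_1 : (chevG2.x (ZMod 2) 6 1).mulVec (vec 2 [0, 1, 0, 0, 0, 0, 0, 0, 0, 1, 0, 0, 0, 0]) = vec 2 [0, 1, 0, 0, 0, 0, 0, 0, 0, 1, 1, 0, 0, 0] := by
  funext i; revert i; decide +kernel
theorem c2_2 : (chevG2.x (ZMod 2) 7 1).mulVec (vec 2 [0, 1, 0, 0, 0, 0, 0, 0, 0, 1, 1, 0, 0, 0]) = vec 2 [0, 1, 0, 0, 0, 0, 0, 0, 0, 0, 1, 0, 1, 0] := by
  funext i; revert i; decide +kernel
theorem c2_3 : (chevG2.x (ZMod 2) 6 1).mulVec (vec 2 [0, 1, 0, 0, 0, 0, 0, 0, 0, 0, 1, 0, 1, 0]) = vec 2 [0, 1, 0, 0, 0, 0, 0, 0, 0, 0, 1, 0, 1, 1] := by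
  funext i; revert i; decide +kernel
theorem c2_4 : (chevG2.x (ZMod 2) 7 1).mulVec (vec 2 [0, 1, 0, 0, 0, 0, 0, 0, 0, 0, 1, 0, 1, 1]) = vec 2 [0, 1, 0, 0, 0, 0, 0, 0, 0, 1, 1, 0, 0, 1] := by
  funext i; revert i; decide +kernel
theorem c2_5 : (chevG2.x (ZMod 2) 6 1).mulVec (vec 2 [0, 1, 0, 0, 0, 0, 0, 0, 0, 1, 1, 0, 0, 1]) = vec 2 [0, 1, 0, 0, 0, 0, 0, 0, 0, 1, 0, 0, 0, 1] := by
  funext i; revert i; decide +kernel
theorem c2_6 : (chevG2.x (ZMod 2) 7 1).mulVec (vec 2 [0, 1, 0, 0, 0, 0, 0, 0, 0, 1, 0, 0, 0, 1]) = vec 2 [0, 1, 0, 0, 0, 0, 0, 0, 0, 0, 0, 0, 0, 1] := by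
  funext i; revert i; decide +kernel
theorem c2_7 : (chevG2.x (ZMod 2) 6 1).mulVec (vec 2 [0, 1, 0, 0, 0, 0, 0, 0, 0, 0, 0, 0, 0, 1]) = vec 2 [0, 1, 0, 0, 0, 0, 0, 0, 0, 0, 0, 0, 0, 1] := by
  funext i; revert i; decide +kernel

theorem reg2 [Fact (Nat.Prime 2)] : (xg chevG2 (ZMod 2) 6 1 * xg chevG2 (ZMod 2) 7 1) ^ 4 ≠ 1 := by
  intro h
  have h1 : (((xg chevG2 (ZMod 2) 6 1 * xg chevG2 (ZMod 2) 7 1) ^ 4 : GL chevG2.Idx (ZMod 2)) : Matrix chevG2.Idx chevG2.Idx (ZMod 2)).mulVec (vec 2 [0, 1, 0, 0, 0, 0, 0, 0, 0, 0, 0, 0, 0, 0]) = vec 2 [0, 1, 0, 0, 0, 0, 0, 0, 0, 0, 0, 0, 0, 0] := by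
    rw [h, Units.val_one, Matrix.one_mulVec]
  have hu : ∀ v : chevG2.Idx → ZMod 2, ((xg chevG2 (ZMod 2) 6 1 * xg chevG2 (ZMod 2) 7 1 : GL chevG2.Idx (ZMod 2)) : Matrix chevG2.Idx chevG2.Idx (ZMod 2)).mulVec v =
      (chevG2.x (ZMod 2) 6 1).mulVec ((chevG2.x (ZMod 2) 7 1).mulVec v) := by
    intro v
    rw [Units.val_mul, coe_xg ChevOkG2.good, coe_xg ChevOkG2.good, Matrix.mulVec_mulVec]
  have hp : ∀ (g : GL chevG2.Idx (ZMod 2)) (n : ℕ) (v : chevG2.Idx → ZMod 2), ((g ^ (n + 1) : GL chevG2.Idx (ZMod 2)) : Matrix chevG2.Idx chevG2.Idx (ZMod 2)).mulVec v =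
      ((g ^ n : GL chevG2.Idx (ZMod 2)) : Matrix chevG2.Idx chevG2.Idx (ZMod 2)).mulVec ((g : Matrix chevG2.Idx chevG2.Idx (ZMod 2)).mulVec v) := by
    intro g n v
    rw [Matrix.mulVec_mulVec, ← Units.val_mul, pow_succ]
  rw [hp _ 3, hu, c2_0, c2_1, hp _ 2, hu, c2_2, c2_3, hp _ 1, hu, c2_4, c2_5, hp _ 0, hu, c2_6, c2_7, pow_zero, Units.val_one, Matrix.one_mulVec] at h1
  have h2 : vec 2 [0, 1, 0, 0, 0, 0, 0, 0, 0, 0, 0, 0, 0, 1] ≠ vec 2 [0, 1, 0, 0, 0, 0, 0, 0, 0, 0, 0, 0, 0, 0] := by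
    intro h
    have := congrFun h (Sum.inr ⟨11, by decide⟩)
    revert this
    decide
  exact h2 h1

theorem c3_0 : (chevG2.x (ZMod 3) 7 1).mulVec (vec 3 [1, 0, 0, 0, 0, 0, 0, 0, 0, 0, 0, 0, 0, 0]) = vec 3 [1, 0, 0, 0, 0, 0, 0, 0, 0, 1, 0, 0, 0, 0] := by
  funext i; revert i; decide +kernel
theorem c3_1 : (chevG2.x (ZMod 3) 6 1).mulVec (vec 3 [1, 0, 0, 0, 0, 0, 0, 0, 0, 1, 0, 0, 0, 0]) = vec 3 [1, 0, 0, 0, 0, 0, 0, 0, 0, 1, 1, 0, 0, 0] := by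
  funext i; revert i; decide +kernel
theorem c3_2 : (chevG2.x (ZMod 3) 7 1).mulVec (vec 3 [1, 0, 0, 0, 0, 0, 0, 0, 0, 1, 1, 0, 0, 0]) = vec 3 [1, 0, 0, 0, 0, 0, 0, 0, 0, 2, 1, 1, 0, 0] := by
  funext i; revert i; decide +kernel
theorem c3_3 : (chevG2.x (ZMod 3) 6 1).mulVec (vec 3 [1, 0, 0, 0, 0, 0, 0, 0, 0, 2, 1, 1, 0, 0]) = vec 3 [1, 0, 0, 0, 0, 0, 0, 0, 0, 2, 0, 1, 0, 0] := by
  funext i; revert i; decide +kernel
theorem c3_4 : (chevG2.x (ZMod 3) 7 1).mulVec (vec 3 [1, 0, 0, 0, 0, 0, 0, 0, 0, 2, 0, 1, 0, 0]) = vec 3 [1, 0, 0, 0, 0, 0, 0, 0, 0, 0, 0, 1, 0, 0] := by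
  funext i; revert i; decide +kernel
theorem c3_5 : (chevG2.x (ZMod 3) 6 1).mulVec (vec 3 [1, 0, 0, 0, 0, 0, 0, 0, 0, 0, 0, 1, 0, 0]) = vec 3 [1, 0, 0, 0, 0, 0, 0, 0, 0, 0, 0, 1, 0, 0] := by
  funext i; revert i; decide +kernel

theorem reg3 [Fact (Nat.Prime 3)] : (xg chevG2 (ZMod 3) 6 1 * xg chevG2 (ZMod 3) 7 1) ^ 3 ≠ 1 := by
  intro h
  have h1 : (((xg chevG2 (ZMod 3) 6 1 * xg chevG2 (ZMod 3) 7 1) ^ 3 : GL chevG2.Idx (ZMod 3)) : Matrix chevG2.Idx chevG2.Idx (ZMod 3)).mulVec (vec 3 [1, 0, 0, 0, 0, 0, 0, 0, 0, 0, 0, 0, 0, 0]) = vec 3 [1, 0, 0, 0, 0, 0, 0, 0, 0, 0, 0, 0, 0, 0] := by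
    rw [h, Units.val_one, Matrix.one_mulVec]
  have hu : ∀ v : chevG2.Idx → ZMod 3, ((xg chevG2 (ZMod 3) 6 1 * xg chevG2 (ZMod 3) 7 1 : GL chevG2.Idx (ZMod 3)) : Matrix chevG2.Idx chevG2.Idx (ZMod 3)).mulVec v =
      (chevG2.x (ZMod 3) 6 1).mulVec ((chevG2.x (ZMod 3) 7 1).mulVec v) := by
    intro v
    rw [Units.val_mul, coe_xg ChevOkG2.good, coe_xg ChevOkG2.good, Matrix.mulVec_mulVec]
  have hp : ∀ (g : GL chevG2.Idx (ZMod 3)) (n : ℕ) (v : chevG2.Idx → ZMod 3), ((g ^ (n + 1) : GL chevG2.Idx (ZMod 3)) : Matrix chevG2.Idx chevG2.Idx (ZMod 3)).mulVec v =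
      ((g ^ n : GL chevG2.Idx (ZMod 3)) : Matrix chevG2.Idx chevG2.Idx (ZMod 3)).mulVec ((g : Matrix chevG2.Idx chevG2.Idx (ZMod 3)).mulVec v) := by
    intro g n v
    rw [Matrix.mulVec_mulVec, ← Units.val_mul, pow_succ]
  rw [hp _ 2, hu, c3_0, c3_1, hp _ 1, hu, c3_2, c3_3, hp _ 0, hu, c3_4, c3_5, pow_zero, Units.val_one, Matrix.one_mulVec] at h1
  have h2 : vec 3 [1, 0, 0, 0, 0, 0, 0, 0, 0, 0, 0, 1, 0, 0] ≠ vec 3 [1, 0, 0, 0, 0, 0, 0, 0, 0, 0, 0, 0, 0, 0] := by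
    intro h
    have := congrFun h (Sum.inr ⟨9, by decide⟩)
    revert this
    decide
  exact h2 h1

theorem c5_0 : (chevG2.x (ZMod 5) 7 1).mulVec (vec 5 [0, 1, 0, 0, 0, 0, 0, 0, 0, 0, 0, 0, 0, 0]) = vec 5 [0, 1, 0, 0, 0, 0, 0, 0, 0, 1, 0, 0, 0, 0] := by
  funext i; revert i; decide +kernel
theorem c5_1 : (chevG2.x (ZMod 5) 6 1).mulVec (vec 5 [0, 1, 0, 0, 0, 0, 0, 0, 0, 1, 0, 0, 0, 0]) = vec 5 [0, 1, 0, 0, 0, 0, 0, 0, 3, 1, 1, 0, 0, 0] := by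
  funext i; revert i; decide +kernel
theorem c5_2 : (chevG2.x (ZMod 5) 7 1).mulVec (vec 5 [0, 1, 0, 0, 0, 0, 0, 0, 3, 1, 1, 0, 0, 0]) = vec 5 [0, 1, 0, 0, 0, 0, 0, 0, 3, 2, 3, 1, 0, 0] := by
  funext i; revert i; decide +kernel
theorem c5_3 : (chevG2.x (ZMod 5) 6 1).mulVec (vec 5 [0, 1, 0, 0, 0, 0, 0, 0, 3, 2, 3, 1, 0, 0]) = vec 5 [0, 1, 0, 0, 0, 0, 0, 0, 1, 2, 0, 1, 0, 0] := by
  funext i; revert i; decide +kernel
theorem c5_4 : (chevG2.x (ZMod 5) 7 1).mulVec (vec 5 [0, 1, 0, 0, 0, 0, 0, 0, 1, 2, 0, 1, 0, 0]) = vec 5 [0, 1, 0, 0, 0, 0, 0, 0, 1, 3, 4, 2, 4, 0] := by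
  funext i; revert i; decide +kernel
theorem c5_5 : (chevG2.x (ZMod 5) 6 1).mulVec (vec 5 [0, 1, 0, 0, 0, 0, 0, 0, 1, 3, 4, 2, 4, 0]) = vec 5 [0, 1, 0, 0, 0, 0, 0, 0, 4, 3, 2, 2, 4, 4] := by
  funext i; revert i; decide +kernel
theorem c5_6 : (chevG2.x (ZMod 5) 7 1).mulVec (vec 5 [0, 1, 0, 0, 0, 0, 0, 0, 4, 3, 2, 2, 4, 4]) = vec 5 [0, 1, 0, 0, 0, 0, 0, 0, 4, 4, 3, 2, 3, 4] := by
  funext i; revert i; decide +kernel
theorem c5_7 : (chevG2.x (ZMod 5) 6 1).mulVec (vec 5 [0, 1, 0, 0, 0, 0, 0, 0, 4, 4, 3, 2, 3, 4]) = vec 5 [0, 1, 0, 0, 0, 0, 0, 0, 2, 4, 2, 2, 3, 2] := by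
  funext i; revert i; decide +kernel
theorem c5_8 : (chevG2.x (ZMod 5) 7 1).mulVec (vec 5 [0, 1, 0, 0, 0, 0, 0, 0, 2, 4, 2, 2, 3, 2]) = vec 5 [0, 1, 0, 0, 0, 0, 0, 0, 2, 0, 0, 0, 0, 2] := by
  funext i; revert i; decide +kernel
theorem c5_9 : (chevG2.x (ZMod 5) 6 1).mulVec (vec 5 [0, 1, 0, 0, 0, 0, 0, 0, 2, 0, 0, 0, 0, 2]) = vec 5 [0, 1, 0, 0, 0, 0, 0, 0, 0, 0, 0, 0, 0, 2] := by
  funext i; revert i; decide +kernel

theorem reg5 [Fact (Nat.Prime 5)] : (xg chevG2 (ZMod 5) 6 1 * xg chevG2 (ZMod 5) 7 1) ^ 5 ≠ 1 := by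
  intro h
  have h1 : (((xg chevG2 (ZMod 5) 6 1 * xg chevG2 (ZMod 5) 7 1) ^ 5 : GL chevG2.Idx (ZMod 5)) : Matrix chevG2.Idx chevG2.Idx (ZMod 5)).mulVec (vec 5 [0, 1, 0, 0, 0, 0, 0, 0, 0, 0, 0, 0, 0, 0]) = vec 5 [0, 1, 0, 0, 0, 0, 0, 0, 0, 0, 0, 0, 0, 0] := by
    rw [h, Units.val_one, Matrix.one_mulVec]
  have hu : ∀ v : chevG2.Idx → ZMod 5, ((xg chevG2 (ZMod 5) 6 1 * xg chevG2 (ZMod 5) 7 1 : GL chevG2.Idx (ZMod 5)) : Matrix chevG2.Idx chevG2.Idx (ZMod 5)).mulVec v =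
      (chevG2.x (ZMod 5) 6 1).mulVec ((chevG2.x (ZMod 5) 7 1).mulVec v) := by
    intro v
    rw [Units.val_mul, coe_xg ChevOkG2.good, coe_xg ChevOkG2.good, Matrix.mulVec_mulVec]
  have hp : ∀ (g : GL chevG2.Idx (ZMod 5)) (n : ℕ) (v : chevG2.Idx → ZMod 5), ((g ^ (n + 1) : GL chevG2.Idx (ZMod 5)) : Matrix chevG2.Idx chevG2.Idx (ZMod 5)).mulVec v =
      ((g ^ n : GL chevG2.Idx (ZMod 5)) : Matrix chevG2.Idx chevG2.Idx (ZMod 5)).mulVec ((g : Matrix chevG2.Idx chevG2.Idx (ZMod 5)).mulVec v) := by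
    intro g n v
    rw [Matrix.mulVec_mulVec, ← Units.val_mul, pow_succ]
  rw [hp _ 4, hu, c5_0, c5_1, hp _ 3, hu, c5_2, c5_3, hp _ 2, hu, c5_4, c5_5, hp _ 1, hu, c5_6, c5_7, hp _ 0, hu, c5_8, c5_9, pow_zero, Units.val_one, Matrix.one_mulVec] at h1
  have h2 : vec 5 [0, 1, 0, 0, 0, 0, 0, 0, 0, 0, 0, 0, 0, 2] ≠ vec 5 [0, 1, 0, 0, 0, 0, 0, 0, 0, 0, 0, 0, 0, 0] := by
    intro h
    have := congrFun h (Sum.inr ⟨11, by decide⟩)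
    revert this
    decide
  exact h2 h1

theorem xg_mem_U {F : Type*} [Field F] {r : Fin chevG2.nroots} (hr : Pos chevG2 r) (c : F) : xg chevG2 F r c ∈ chevG2.posUnipotent F := by
  rw [← XS_posS ChevOkG2.good]; exact xg_mem_XS hr c

theorem exists_unip {F : Type*} [Field F] (p : ℕ) [Fact p.Prime] [CharP F p] (j : ℕ) (h6 : 6 ≤ p ^ (j + 1))
    (h : (xg chevG2 (ZMod p) 6 1 * xg chevG2 (ZMod p) 7 1) ^ p ^ j ≠ 1) : ∃ x ∈ chevG2.group F, orderOf x = p ^ (j + 1) := by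
  set u := xg chevG2 (ZMod p) 6 1 * xg chevG2 (ZMod p) 7 1 with hu
  have h1 : u ∈ chevG2.posUnipotent (ZMod p) := mul_mem (xg_mem_U (r := ⟨6, by decide⟩) (by decide) 1) (xg_mem_U (r := ⟨7, by decide⟩) (by decide) 1)
  have h2 := U_expG2 p (j + 1) h6 h1
  have h3 : orderOf u = p ^ (j + 1) := orderOf_eq_prime_pow h h2
  have h4 : u ∈ chevG2.group (ZMod p) := mul_mem (ChevBN.xg_mem_group ChevOkG2.good (by decide) 1) (ChevBN.xg_mem_group ChevOkG2.good (by decide) 1)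
  refine ⟨em chevG2 (ZMod.castHom (dvd_refl p) F) u, em_group ChevOkG2.good _ h4, ?_⟩
  rw [orderOf_injective (em chevG2 (ZMod.castHom (dvd_refl p) F)) (em_injective _) u, h3]

/-- twisted characters with prescribed values on the fundamental roots -/
theorem mkTw {K : Type*} [Field K] {q : ℕ} {w : Equiv.Perm (Fin chevG2.nroots)} (hw : w ∈ Wg ChevOkG2.good) (X Y : Kˣ)
    (r0 : X ^ mg (tup ChevOkG2.good w) 0 0 * Y ^ mg (tup ChevOkG2.good w) 0 1 = X ^ (q : ℤ))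
    (r1 : X ^ mg (tup ChevOkG2.good w) 1 0 * Y ^ mg (tup ChevOkG2.good w) 1 1 = Y ^ (q : ℤ)) :
    (fun s : Fin chevG2.nroots => X ^ rg s 0 * Y ^ rg s 1) ∈ TwG ChevOkG2.good K q w := by
  refine ⟨fun s => ?_, fun s => ?_⟩
  · have h2 : ∀ f : Fin chevG2.rank → Kˣ, ∏ j, f j = f ⟨0, by decide⟩ * f ⟨1, by decide⟩ := fun f => Fin.prod_univ_two f
    rw [h2]
    have e0 : X ^ rg (simpF ChevOkG2.good ⟨0, by decide⟩) 0 * Y ^ rg (simpF ChevOkG2.good ⟨0, by decide⟩) 1 = X := by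
      change X ^ (1 : ℤ) * Y ^ (0 : ℤ) = X
      simp
    have e1 : X ^ rg (simpF ChevOkG2.good ⟨1, by decide⟩) 0 * Y ^ rg (simpF ChevOkG2.good ⟨1, by decide⟩) 1 = Y := by
      change X ^ (0 : ℤ) * Y ^ (1 : ℤ) = Y
      simp
    beta_reduce
    rw [e0, e1]
    rw [← rv_rg s 0 (by norm_num), ← rv_rg s 1 (by norm_num)]
  · change X ^ rg (w s) 0 * Y ^ rg (w s) 1 = (X ^ rg s 0 * Y ^ rg s 1) ^ q
    rw [rg_w hw s 0 (by norm_num), rg_w hw s 1 (by norm_num)]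
    unfold ra
    rw [mono_pow r0 r1, zpow_natCast]

theorem tup_wlG (l : List (Fin chevG2.rank)) : tup ChevOkG2.good (wl ChevOkG2.good l) =
    (List.finRange chevG2.rank).map fun j : Fin chevG2.rank => l.foldr (fun (i : Fin chevG2.rank) (a : ℕ) => chevG2.reflectRoot i a) (chevG2.simple j) := by
  unfold tup
  apply List.map_congr_left
  intro j _
  rw [wl_val]
  rfl

/-- the order of such a character -/
theorem order_mk {K : Type*} [Field K] {X Y : Kˣ} {n : ℕ} (hX : orderOf X = n) (hY : Y ^ n = 1) :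
    orderOf (fun s : Fin chevG2.nroots => X ^ rg s 0 * Y ^ rg s 1) = n := by
  apply Nat.dvd_antisymm
  · apply orderOf_dvd_of_pow_eq_one
    funext s
    rw [Pi.pow_apply, mul_pow, ← zpow_natCast, ← zpow_natCast, ← zpow_mul, ← zpow_mul, mul_comm (rg s 0), mul_comm (rg s 1), zpow_mul, zpow_mul,
      zpow_natCast, zpow_natCast, hY, ← hX, pow_orderOf_eq_one, one_zpow, one_zpow, one_mul]
    rfl
  · rw [← hX]
    apply orderOf_dvd_of_pow_eq_one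
    have h := congrFun (pow_orderOf_eq_one (fun s : Fin chevG2.nroots => X ^ rg s 0 * Y ^ rg s 1)) ⟨7, by decide⟩
    rw [Pi.pow_apply] at h
    change (X ^ (1 : ℤ) * Y ^ (0 : ℤ)) ^ _ = 1 at h
    rwa [zpow_one, zpow_zero, mul_one] at h

theorem exists_root {K : Type*} [Field K] [IsAlgClosed K] (p : ℕ) [hp : Fact p.Prime] [CharP K p] {n : ℕ} (hn : n ≠ 0) (hnp : ¬ p ∣ n) : ∃ a : Kˣ, orderOf a = n := by
  have hn0 : NeZero n := ⟨hn⟩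
  have hsK : NeZero (n : K) := ⟨fun h => hnp ((CharP.cast_eq_zero_iff K p n).mp h)⟩
  obtain ⟨ζ, hζ⟩ := HasEnoughRootsOfUnity.exists_primitiveRoot K n
  obtain ⟨a, rfl⟩ : ∃ a : Kˣ, (a : K) = ζ := ⟨Units.mk0 ζ (hζ.ne_zero hn), rfl⟩
  exact ⟨a, by rw [← orderOf_units]; exact hζ.eq_orderOf.symm⟩

section
variable {F K : Type*} [Field F] [Fintype F] [Field K] [IsAlgClosed K] {p q : ℕ} [hp : Fact p.Prime] [CharP K p] (Z : SetupF F K p q)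
include Z

local instance : NeZero chevG2.rank := ⟨by decide⟩

/-- semisimple elements from the tori whose matrix has an entry one -/
theorem exists_ss (l : List (Fin chevG2.rank)) {a c d : ℤ} (ha : mg (tup ChevOkG2.good (wl ChevOkG2.good l)) 0 0 = a) (hb : mg (tup ChevOkG2.good (wl ChevOkG2.good l)) 0 1 = 1)
    (hc : mg (tup ChevOkG2.good (wl ChevOkG2.good l)) 1 0 = c) (hd : mg (tup ChevOkG2.good (wl ChevOkG2.good l)) 1 1 = d) {n : ℕ} (hn : n ≠ 0) (hnp : ¬ p ∣ n)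
    (h : (n : ℤ) ∣ ((q : ℤ) - a) * (q - d) - c) : ∃ X : Kˣ, orderOf X = n ∧
      (fun s : Fin chevG2.nroots => X ^ rg s 0 * (X ^ ((q : ℤ) - a)) ^ rg s 1) ∈ TwG ChevOkG2.good K q (wl ChevOkG2.good l) ∧
      orderOf (fun s : Fin chevG2.nroots => X ^ rg s 0 * (X ^ ((q : ℤ) - a)) ^ rg s 1) = n := by
  obtain ⟨X, hX⟩ := exists_root (K := K) p hn hnp
  refine ⟨X, hX, mkTw (wl_mem _ l) X (X ^ ((q : ℤ) - a)) ?_ ?_, order_mk hX ?_⟩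
  · rw [ha, hb, zpow_one, ← zpow_add]; congr 1; ring
  · rw [hc, hd, ← zpow_mul, ← zpow_add, ← zpow_mul]
    obtain ⟨k, hk⟩ := h
    have e : ((q : ℤ) - a) * q = c + (q - a) * d + n * k := by linarith
    rw [e, zpow_add _ _ ((n : ℤ) * k), zpow_mul X (n : ℤ) k, zpow_natCast, ← hX, pow_orderOf_eq_one, one_zpow, mul_one]
  · rw [← zpow_natCast, ← zpow_mul, mul_comm, zpow_mul, zpow_natCast, ← hX, pow_orderOf_eq_one, one_zpow]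

theorem exists_tori : (∃ x ∈ chevG2.group F, orderOf x = q ^ 2 - 1) ∧ (∃ x ∈ chevG2.group F, orderOf x = q ^ 2 + q + 1) ∧
    (∃ x ∈ chevG2.group F, orderOf x = q ^ 2 - q + 1) := by
  have hq1 : 1 < q := by rw [Z.hq]; exact Nat.one_lt_pow Z.e0 hp.out.one_lt
  have hpq : p ∣ q := by rw [Z.hq]; exact dvd_pow_self p Z.e0
  have hpq2 : p ∣ q ^ 2 := hpq.trans (dvd_pow_self q (by norm_num))
  have hq2 : q < q ^ 2 := by nlinarith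
  have hp1 : ¬ p ∣ 1 := hp.out.one_lt.ne' ∘ Nat.dvd_one.mp
  have hD : Listed chevG2 := by simp [Listed]
  refine ⟨?_, ?_, ?_⟩
  · obtain ⟨X, -, hχ, ho⟩ := exists_ss Z [1] (a := 1) (c := 0) (d := -1) (n := q ^ 2 - 1) (by rw [tup_wlG]; decide +kernel) (by rw [tup_wlG]; decide +kernel)
      (by rw [tup_wlG]; decide +kernel) (by rw [tup_wlG]; decide +kernel) (by omega) (by
        intro h
        apply hp1
        have := Nat.dvd_sub hpq2 h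
        rwa [Nat.sub_sub_self (by omega)] at this) (by
        rw [Nat.cast_sub (by omega)]
        push_cast
        exact ⟨1, by ring⟩)
    obtain ⟨g, -, t, -, x, hx, -, -, -, hxo⟩ := exists_elt Z hD cdG2 _ hχ
    exact ⟨x, hx, by rw [hxo, ho]⟩
  · obtain ⟨X, -, hχ, ho⟩ := exists_ss Z [0, 1, 0, 1] (a := 1) (c := -3) (d := -2) (n := q ^ 2 + q + 1) (by rw [tup_wlG]; decide +kernel) (by rw [tup_wlG]; decide +kernel)
      (by rw [tup_wlG]; decide +kernel) (by rw [tup_wlG]; decide +kernel) (by omega) (by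
        intro h
        apply hp1
        exact (Nat.dvd_add_right (dvd_add hpq2 hpq)).mp h) (by
        push_cast
        exact ⟨1, by ring⟩)
    obtain ⟨g, -, t, -, x, hx, -, -, -, hxo⟩ := exists_elt Z hD cdG2 _ hχ
    exact ⟨x, hx, by rw [hxo, ho]⟩
  · obtain ⟨X, -, hχ, ho⟩ := exists_ss Z [0, 1] (a := 2) (c := -3) (d := -1) (n := q ^ 2 - q + 1) (by rw [tup_wlG]; decide +kernel) (by rw [tup_wlG]; decide +kernel)
      (by rw [tup_wlG]; decide +kernel) (by rw [tup_wlG]; decide +kernel) (by omega) (by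
        intro h
        apply hp1
        exact (Nat.dvd_add_right (Nat.dvd_sub hpq2 hpq)).mp h) (by
        rw [Nat.cast_add, Nat.cast_sub (by omega)]
        push_cast
        exact ⟨1, by ring⟩)
    obtain ⟨g, -, t, -, x, hx, -, -, -, hxo⟩ := exists_elt Z hD cdG2 _ hχ
    exact ⟨x, hx, by rw [hxo, ho]⟩

end

end Cfsg.Agent.Lib.ChevPG
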