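import Cfsg.Agent.Lib.ChevPG10

set_option autoImplicit false
set_option maxRecDepth 1000000

/-!
# Mixed elements of large order in G₂(q) (helper40)
-/

namespace Cfsg.Agent.Lib.ChevPG
open Cfsg.Lie Cfsg.Agent.Lib.ChevX Cfsg.Agent.Lib.ChevGood Cfsg.Agent.Lib.ChevRel Cfsg.Agent.Lib.ChevNPerm
  Cfsg.Agent.Lib.ChevPoinc Cfsg.Agent.Lib.ChevClosed Cfsg.Agent.Lib.ChevSS Cfsg.Agent.Lib.ChevFix Cfsg.Agent.Lib.ChevTorus
  Cfsg.Agent.Lib.AltW
open Cfsg.Agent.Lib.ChevBruhat (Listed)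

section
variable {D : ChevalleyDatum} {G : Good D} {F K : Type*} [Field F] [Fintype F] [Field K] [IsAlgClosed K] {p q : ℕ} [hp : Fact p.Prime] [CharP K p]
  (Z : SetupF F K p q)
include Z

/-- **commuting unipotent elements** -/
theorem exists_comm' (hD : Listed D) (cd : CertD D 1) (l : List (Fin D.rank)) {χ : Fin D.nroots → Kˣ} (hχ : χ ∈ TwG G K q (wl G l))
    {r : Fin D.nroots} (hr : wl G l r = r) (hr1 : χ r = 1) :
    ∃ x ∈ D.group F, ∃ y ∈ D.group F, orderOf x = orderOf χ ∧ orderOf y = p ∧ x * y = y * x := by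
  obtain ⟨g, hg, t, ht, x, hx, hgσ, htχ, hxe, hxo⟩ := exists_elt Z hD cd l hχ
  have hq1 : 1 < q := by rw [Z.hq]; exact Nat.one_lt_pow Z.e0 hp.out.one_lt
  obtain ⟨-, c, hc, -, hc2⟩ := mono_nl (F := K) G l
  obtain ⟨a, ha⟩ := IsAlgClosed.exists_pow_nat_eq ((c r)⁻¹) (n := q - 1) (by omega)
  have ha0 : a ≠ 0 := by
    intro h
    rw [h, zero_pow (by omega)] at ha
    exact inv_ne_zero (hc r) ha.symm
  have hca : c r * a ^ q = a := by
    have e : q = (q - 1) + 1 := by omega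
    rw [e, pow_succ, ha, ← mul_assoc, mul_inv_cancel₀ (hc r), one_mul]
  have hfx : em D (Z.σ : K →+* K) (g * xg D K r a * g⁻¹) = g * xg D K r a * g⁻¹ := by
    have h1 : (Z.σ : K →+* K) a = a ^ q := by
      change Z.σ a = _
      rw [Z.hσ]
      exact congrArg (fun m => a ^ m) Z.hq.symm
    rw [map_mul, map_mul, map_inv, hgσ, mul_inv_rev, em_xg G, h1]
    calc g * nl D K l * xg D K r (a ^ q) * ((nl D K l)⁻¹ * g⁻¹) = g * (nl D K l * xg D K r (a ^ q) * (nl D K l)⁻¹) * g⁻¹ := by group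
      _ = _ := by rw [hc2 r, hr, hca]
  obtain ⟨y, hy, hye⟩ := (fixed_iff G hD cd Z.σ Z.ι Z.hfix (fun y _ => ⟨y, pow_one y⟩) one_ne_zero
    (mul_mem (mul_mem hg (ChevBN.xg_mem_group G r.2 a)) (inv_mem hg))).mp hfx
  have hcomm : t * xg D K r a = xg D K r a * t := by
    have h1 := conj_x G ht r a
    rw [htχ, hr1, Units.val_one, one_mul] at h1
    exact mul_inv_eq_iff_eq_mul.mp h1
  refine ⟨x, hx, y, hy, hxo, ?_, ?_⟩
  · apply orderOf_eq_prime
    · apply em_injective (D := D) Z.ι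
      rw [map_pow, map_one, hye, conj_pow, xg_pow_p G p r a dvd_rfl, mul_one, mul_inv_cancel]
    · intro h
      rw [h, map_one] at hye
      have h3 : xg D K r a = 1 := by
        calc xg D K r a = g⁻¹ * (g * xg D K r a * g⁻¹) * g := by group
          _ = 1 := by rw [← hye]; group
      exact ha0 ((xg_eq_one_iff G r.2 a).mp h3)
  · apply em_injective (D := D) Z.ι
    rw [map_mul, map_mul, hxe, hye]
    calc g * t * g⁻¹ * (g * xg D K r a * g⁻¹) = g * (t * xg D K r a) * g⁻¹ := by group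
      _ = g * (xg D K r a * t) * g⁻¹ := by rw [hcomm]
      _ = _ := by group

end

local instance : NeZero chevG2.rank := ⟨by decide⟩

theorem orderOf_prod {Γ : Type*} [Group Γ] {x y : Γ} {a b : ℕ} (hx : orderOf x = a) (hy : orderOf y = b) (hc : x * y = y * x) (h : a.Coprime b) :
    orderOf (y * x) = b * a := by
  have hc' : Commute y x := hc.symm
  rw [hc'.orderOf_mul_eq_mul_orderOf_of_coprime (by rw [hx, hy]; exact h.symm), hx, hy]

section
variable {F K : Type*} [Field F] [Fintype F] [Field K] [IsAlgClosed K] {p q : ℕ} [hp : Fact p.Prime] [CharP K p] (Z : SetupF F K p q)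
include Z

theorem exists_mixed : (∃ x ∈ chevG2.group F, orderOf x = p * (q + 1)) ∧ (∃ x ∈ chevG2.group F, orderOf x = p * (q - 1)) := by
  have hq1 : 1 < q := by rw [Z.hq]; exact Nat.one_lt_pow Z.e0 hp.out.one_lt
  have hpq : p ∣ q := by rw [Z.hq]; exact dvd_pow_self p Z.e0
  have hp1 : ¬ p ∣ 1 := hp.out.one_lt.ne' ∘ Nat.dvd_one.mp
  have hD : Listed chevG2 := by simp [Listed]
  have hn1 : ¬ p ∣ q + 1 := fun h => hp1 ((Nat.dvd_add_right hpq).mp h)
  have hn2 : ¬ p ∣ q - 1 := fun h => by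
    apply hp1
    have := Nat.dvd_sub hpq h
    rwa [Nat.sub_sub_self (by omega)] at this
  constructor
  · obtain ⟨X, hX, hχ, ho⟩ := exists_ss Z [1] (a := 1) (c := 0) (d := -1) (n := q + 1) (by rw [tup_wlG]; decide +kernel) (by rw [tup_wlG]; decide +kernel)
      (by rw [tup_wlG]; decide +kernel) (by rw [tup_wlG]; decide +kernel) (by omega) hn1 (by
        push_cast
        exact ⟨q - 1, by ring⟩)
    obtain ⟨x, hx, y, hy, hxo, hyo, hc⟩ := exists_comm' Z hD cdG2 [1] hχ (r := ⟨9, by decide⟩) (by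
      apply Fin.ext
      rw [wl_val]
      decide +kernel) (by
      change X ^ (2 : ℤ) * (X ^ ((q : ℤ) - 1)) ^ (1 : ℤ) = 1
      rw [zpow_one, ← zpow_add, show (2 : ℤ) + ((q : ℤ) - 1) = ((q + 1 : ℕ) : ℤ) by push_cast; ring, zpow_natCast, ← hX, pow_orderOf_eq_one])
    rw [ho] at hxo
    exact ⟨y * x, mul_mem hy hx, orderOf_prod hxo hyo hc ((Nat.Prime.coprime_iff_not_dvd hp.out).mpr hn1).symm⟩
  · obtain ⟨X, hX⟩ := exists_root (K := K) p (n := q - 1) (by omega) hn2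
    have hXq : X ^ (q : ℤ) = X := by
      rw [zpow_natCast]
      calc X ^ q = X ^ (q - 1) * X := by rw [← pow_succ, Nat.sub_add_cancel hq1.le]
        _ = X := by rw [← hX, pow_orderOf_eq_one, one_mul]
    have hχ : (fun s : Fin chevG2.nroots => X ^ rg s 0 * (1 : Kˣ) ^ rg s 1) ∈ TwG ChevOkG2.good K q (wl ChevOkG2.good []) := by
      apply mkTw (wl_mem _ [])
      · rw [hXq, tup_wlG]
        change X ^ (1 : ℤ) * 1 ^ (0 : ℤ) = X
        simp
      · rw [tup_wlG]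
        change X ^ (0 : ℤ) * 1 ^ (1 : ℤ) = 1 ^ (q : ℤ)
        simp
    have ho := order_mk (Y := (1 : Kˣ)) hX (one_pow _)
    obtain ⟨x, hx, y, hy, hxo, hyo, hc⟩ := exists_comm' Z hD cdG2 [] hχ (r := ⟨6, by decide⟩) rfl (by
      change X ^ (0 : ℤ) * 1 ^ (1 : ℤ) = 1
      simp)
    rw [ho] at hxo
    exact ⟨y * x, mul_mem hy hx, orderOf_prod hxo hyo hc ((Nat.Prime.coprime_iff_not_dvd hp.out).mpr hn2).symm⟩

end

/-! ### elements of order 12 in characteristic two -/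

theorem exists_twelve {F : Type*} [Field F] [CharP F 2] : ∃ x ∈ chevG2.group F, orderOf x = 12 := by
  have : Fact (Nat.Prime 2) := ⟨Nat.prime_two⟩
  suffices h : ∃ x ∈ chevG2.group (ZMod 2), orderOf x = 12 by
    obtain ⟨x, hx, ho⟩ := h
    refine ⟨em chevG2 (ZMod.castHom (dvd_refl 2) F) x, em_group ChevOkG2.good _ hx, ?_⟩
    rw [orderOf_injective (em chevG2 (ZMod.castHom (dvd_refl 2) F)) (em_injective _) x, ho]
  set K := AlgebraicClosure (ZMod 2) with hK
  have hcK : CharP K 2 := charP_of_injective_algebraMap (algebraMap (ZMod 2) K).injective 2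
  obtain ⟨Z⟩ := exists_setup (ZMod 2) (q := 2) (ZMod.card 2) 2
  have h2K : (2 : K) = 0 := CharTwo.two_eq_zero
  have hD : Listed chevG2 := by simp [Listed]
  set G := ChevOkG2.good with hG
  obtain ⟨X, hX⟩ := exists_root (K := K) 2 (n := 3) (by norm_num) (by norm_num)
  have hX3 : X ^ 3 = 1 := by rw [← hX, pow_orderOf_eq_one]
  have hχ : (fun s : Fin chevG2.nroots => X ^ rg s 0 * (1 : Kˣ) ^ rg s 1) ∈ TwG G K 2 (wl G [0]) := by
    apply mkTw (wl_mem _ [0])
    · rw [tup_wlG]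
      change X ^ (-1 : ℤ) * 1 ^ (0 : ℤ) = X ^ (2 : ℤ)
      rw [one_zpow, mul_one, zpow_neg, zpow_one, inv_eq_iff_mul_eq_one]
      calc X * X ^ (2 : ℤ) = X ^ 3 := by rw [show (2 : ℤ) = ((2 : ℕ) : ℤ) from rfl, zpow_natCast, ← pow_succ']
        _ = 1 := hX3
    · rw [tup_wlG]
      change X ^ (3 : ℤ) * 1 ^ (1 : ℤ) = 1 ^ (2 : ℤ)
      rw [show (3 : ℤ) = ((3 : ℕ) : ℤ) from rfl, zpow_natCast, hX3]
      simp
  have ho := order_mk (Y := (1 : Kˣ)) hX (one_pow _)
  obtain ⟨g, hg, t, ht, x, hx, hgσ, htχ, hxe, hxo⟩ := exists_elt Z hD cdG2 [0] hχ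
  rw [ho] at hxo
  obtain ⟨e, he, hcm⟩ := comm_6_10 (F := K)
  have he0 : e ≠ 0 := by rcases he with rfl | rfl <;> simp
  have he1 : e = 1 := by
    rcases he with rfl | rfl
    · rfl
    · linear_combination -h2K
  -- the twisting
  obtain ⟨c, hc⟩ : ∃ c : K, c ^ 2 + c + 1 = 0 := by
    have hdeg : (Polynomial.X ^ 2 + Polynomial.X + 1 : Polynomial K).degree ≠ 0 := by
      have h1 : (Polynomial.X ^ 2 + Polynomial.X + 1 : Polynomial K).degree = 2 := by compute_degree!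
      rw [h1]; norm_num
    obtain ⟨c, hc⟩ := IsAlgClosed.exists_root _ hdeg
    refine ⟨c, ?_⟩
    simpa [Polynomial.IsRoot.def] using hc
  set a := xg chevG2 K 6 1 with ha
  set b := xg chevG2 K 10 1 with hb
  set z := xg chevG2 K 11 c with hz
  set v := a * b * z with hv
  have hn : ∀ (s : Fin chevG2.nroots) (d : K), nl chevG2 K [0] * xg chevG2 K s d * (nl chevG2 K [0])⁻¹ = xg chevG2 K (wl G [0] s) d := fun s d => nl_conj_two G h2K [0] s d
  have w6 : (wl G [0] ⟨6, by decide⟩ : ℕ) = 10 := by rw [wl_val]; decide +kernel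
  have w10 : (wl G [0] ⟨10, by decide⟩ : ℕ) = 6 := by rw [wl_val]; decide +kernel
  have w11 : (wl G [0] ⟨11, by decide⟩ : ℕ) = 11 := by rw [wl_val]; decide +kernel
  have hn6 := hn ⟨6, by decide⟩ 1
  have hn10 := hn ⟨10, by decide⟩ 1
  have hn11 := hn ⟨11, by decide⟩ (c ^ 2)
  rw [w6] at hn6
  rw [w10] at hn10
  rw [w11] at hn11
  have hσ : ∀ y : K, (Z.σ : K →+* K) y = y ^ 2 := by
    intro y
    change Z.σ y = _
    rw [Z.hσ, ← Z.hq]
  have hba : b * a = a * b * xg chevG2 K 11 e := by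
    have := hcm 1 1
    rwa [mul_one, mul_one] at this
  have hvσ : em chevG2 (Z.σ : K →+* K) v = a * b * xg chevG2 K 11 (c ^ 2) := by
    rw [hv, ha, hb, hz, map_mul, map_mul, em_xg G, em_xg G, em_xg G, hσ, hσ, one_pow]
  have hnv : nl chevG2 K [0] * em chevG2 (Z.σ : K →+* K) v * (nl chevG2 K [0])⁻¹ = v := by
    rw [hvσ]
    calc nl chevG2 K [0] * (a * b * xg chevG2 K 11 (c ^ 2)) * (nl chevG2 K [0])⁻¹
        = (nl chevG2 K [0] * a * (nl chevG2 K [0])⁻¹) * (nl chevG2 K [0] * b * (nl chevG2 K [0])⁻¹) * (nl chevG2 K [0] * xg chevG2 K 11 (c ^ 2) * (nl chevG2 K [0])⁻¹) := by group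
      _ = b * a * xg chevG2 K 11 (c ^ 2) := by
        rw [show nl chevG2 K [0] * a * (nl chevG2 K [0])⁻¹ = b from hn6, show nl chevG2 K [0] * b * (nl chevG2 K [0])⁻¹ = a from hn10,
          show nl chevG2 K [0] * xg chevG2 K 11 (c ^ 2) * (nl chevG2 K [0])⁻¹ = xg chevG2 K 11 (c ^ 2) from hn11]
      _ = a * b * (xg chevG2 K 11 e * xg chevG2 K 11 (c ^ 2)) := by rw [hba]; group
      _ = v := by
        rw [xg_add G, hv, hz]
        congr 2
        rw [he1]
        linear_combination hc - c * h2K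
  have hfx : em chevG2 (Z.σ : K →+* K) (g * v * g⁻¹) = g * v * g⁻¹ := by
    rw [map_mul, map_mul, map_inv, hgσ, mul_inv_rev]
    calc g * nl chevG2 K [0] * em chevG2 (Z.σ : K →+* K) v * ((nl chevG2 K [0])⁻¹ * g⁻¹) = g * (nl chevG2 K [0] * em chevG2 (Z.σ : K →+* K) v * (nl chevG2 K [0])⁻¹) * g⁻¹ := by group
      _ = _ := by rw [hnv]
  have hvG : v ∈ chevG2.group K := mul_mem (mul_mem (ChevBN.xg_mem_group G (by decide) 1) (ChevBN.xg_mem_group G (by decide) 1)) (ChevBN.xg_mem_group G (by decide) c)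
  obtain ⟨y, hy, hye⟩ := (fixed_iff G hD cdG2 Z.σ Z.ι Z.hfix (fun y _ => ⟨y, pow_one y⟩) one_ne_zero
    (mul_mem (mul_mem hg hvG) (inv_mem hg))).mp hfx
  -- v has order 4
  have hza : Commute z a := comm_6_11 _ _
  have hzb : Commute z b := comm_10_11 _ _
  have hv2 : v ^ 2 = xg chevG2 K 11 e := by
    rw [hv, ((hza.symm.mul_left hzb.symm)).mul_pow, class_two_pow (hcm 1 1) (comm_6_11 _ _) (comm_10_11 _ _) 2, hz,
      xg_pow_p G 2 6 _ dvd_rfl, xg_pow_p G 2 10 _ dvd_rfl, xg_pow_p G 2 11 c dvd_rfl]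
    simp
  have hvo : orderOf v = 4 := by
    apply orderOf_eq_prime_pow (p := 2) (n := 1)
    · rw [pow_one, hv2, xg_eq_one_iff G (by decide)]
      exact he0
    · change v ^ 4 = 1
      rw [show (4 : ℕ) = 2 * 2 from rfl, pow_mul, hv2, xg_pow_p G 2 11 e dvd_rfl]
  have hyo : orderOf y = 4 := by
    rw [← orderOf_injective (em chevG2 Z.ι) (em_injective Z.ι) y, hye, ← hvo]
    exact (MulAut.conj g).orderOf_eq v
  have htv : t * v = v * t := by
    have key : ∀ (s : Fin chevG2.nroots) (d : K), rval t s = 1 → Commute t (xg chevG2 K s d) := fun s d hs => ChevSS.xg_comm G ht hs d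
    have h6 : Commute t a := key ⟨6, by decide⟩ 1 (by
      rw [htχ]
      change ((X ^ (0 : ℤ) * 1 ^ (1 : ℤ) : Kˣ) : K) = 1
      simp)
    have h10 : Commute t b := key ⟨10, by decide⟩ 1 (by
      rw [htχ]
      change ((X ^ (3 : ℤ) * 1 ^ (1 : ℤ) : Kˣ) : K) = 1
      rw [show (3 : ℤ) = ((3 : ℕ) : ℤ) from rfl, zpow_natCast, hX3]; simp)
    have h11 : Commute t z := key ⟨11, by decide⟩ c (by
      rw [htχ]
      change ((X ^ (3 : ℤ) * 1 ^ (2 : ℤ) : Kˣ) : K) = 1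
      rw [show (3 : ℤ) = ((3 : ℕ) : ℤ) from rfl, zpow_natCast, hX3]; simp)
    exact ((h6.mul_right h10).mul_right h11)
  have hxy : x * y = y * x := by
    apply em_injective (D := chevG2) Z.ι
    rw [map_mul, map_mul, hxe, hye]
    calc g * t * g⁻¹ * (g * v * g⁻¹) = g * (t * v) * g⁻¹ := by group
      _ = g * (v * t) * g⁻¹ := by rw [htv]
      _ = _ := by group
  exact ⟨y * x, mul_mem hy hx, orderOf_prod hxo hyo hxy (by norm_num)⟩

end Cfsg.Agent.Lib.ChevPG
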