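import Cfsg.Agent.Lib.ChevPG11

set_option autoImplicit false
set_option maxRecDepth 1000000

/-!
# Element orders of G₂(q) (helper40)
-/

namespace Cfsg.Agent.Lib.ChevPG
open Cfsg.Lie Cfsg.Agent.Lib.ChevX Cfsg.Agent.Lib.ChevGood Cfsg.Agent.Lib.ChevRel Cfsg.Agent.Lib.ChevNPerm
  Cfsg.Agent.Lib.ChevPoinc Cfsg.Agent.Lib.ChevClosed Cfsg.Agent.Lib.ChevSS Cfsg.Agent.Lib.ChevFix Cfsg.Agent.Lib.ChevTorus
open Cfsg.Agent.Lib.ChevBruhat (Listed)

section
variable {F K : Type*} [Field F] [Fintype F] [Field K] [IsAlgClosed K] {p q : ℕ} [hp : Fact p.Prime] [CharP K p] (Z : SetupF F K p q)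

/-- unipotent elements of `G₂(q)` -/
theorem unip_exp [CharP F p] (j : ℕ) (hj : 6 ≤ p ^ j) {v : GL chevG2.Idx F} (hv : v ∈ chevG2.group F) {k : ℕ} (hk : v ^ p ^ k = 1) : v ^ p ^ j = 1 := by
  obtain ⟨c, hc, h⟩ := sylow_cen p (t := (1 : GL chevG2.Idx F)) (one_mem _) (v := v) (mem_cen.mpr ⟨hv, by rw [one_mul, mul_one]⟩) hk
  have h1 := U_expG2 p j hj h
  rw [conj_pow] at h1
  calc v ^ p ^ j = c⁻¹ * (c * v ^ p ^ j * c⁻¹) * c := by group
    _ = 1 := by rw [h1]; group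

include Z

theorem order_semi {s : GL chevG2.Idx F} (hs : s ∈ chevG2.group F) (hso : (orderOf s).Coprime p) :
    orderOf s ∣ q ^ 2 - 1 ∨ orderOf s ∣ q ^ 2 + q + 1 ∨ orderOf s ∣ q ^ 2 - q + 1 := by
  have hq1 : 1 < q := by rw [Z.hq]; exact Nat.one_lt_pow Z.e0 hp.out.one_lt
  obtain ⟨g, hg, t, ht, w, hw, χ, hχ, htχ, hse, ho⟩ := exists_char Z (D := chevG2) (by simp [Listed]) noMinG2 cdG2 hs hso
  rw [ho]
  exact order_ss hχ.1 hw hq1.le hχ.2

/-- the possible orders -/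
theorem order_parts {x : GL chevG2.Idx F} (hx : x ∈ chevG2.group F) :
    (orderOf x ∣ q ^ 2 - 1 ∨ orderOf x ∣ q ^ 2 + q + 1 ∨ orderOf x ∣ q ^ 2 - q + 1) ∨
    (∃ k, orderOf x = p ^ k ∧ ∀ j, 6 ≤ p ^ j → p ^ k ∣ p ^ j) ∨
    (p ≠ 2 ∧ (orderOf x ∣ p * (q + 1) ∨ orderOf x ∣ p * (q - 1))) ∨
    (p = 2 ∧ (orderOf x ∣ p * (q + 1) ∨ orderOf x ∣ p * (q - 1) ∨ orderOf x ∣ 12)) := by
  have hcF : CharP F p := RingHom.charP _ Z.ι.injective p
  have hpos : 0 < orderOf x := orderOf_pos x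
  obtain ⟨k, m, hm, hn⟩ := Nat.exists_eq_pow_mul_and_not_dvd hpos.ne' p hp.out.ne_one
  have hcop : m.Coprime p := ((Nat.Prime.coprime_iff_not_dvd hp.out).mpr hm).symm
  have hm0 : m ≠ 0 := by rintro rfl; exact hm (dvd_zero p)
  have hpk : p ^ k ≠ 0 := pow_ne_zero _ hp.out.ne_zero
  have hs : orderOf (x ^ p ^ k) = m := by
    rw [orderOf_pow, hn, Nat.gcd_eq_right (dvd_mul_right _ m), Nat.mul_div_cancel_left _ (Nat.pos_of_ne_zero hpk)]
  have hu : orderOf (x ^ m) = p ^ k := by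
    rw [orderOf_pow, hn, Nat.gcd_eq_right (dvd_mul_left m _), Nat.mul_div_cancel _ (Nat.pos_of_ne_zero hm0)]
  by_cases hk : k = 0
  · left
    rw [hk, pow_zero, one_mul] at hn
    apply order_semi Z hx
    rw [hn]
    exact hcop
  · by_cases hm1 : m = 1
    · right; left
      rw [hm1, mul_one] at hn
      refine ⟨k, hn, fun j hj => ?_⟩
      rw [← hn]
      exact orderOf_dvd_of_pow_eq_one (unip_exp j hj hx (k := k) (by rw [← hn, pow_orderOf_eq_one]))
    · right; right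
      obtain ⟨h1, h2, h3⟩ := mixed Z (pow_mem hx (p ^ k)) (pow_mem hx m) (by rw [← pow_add, ← pow_add, add_comm]) (by rw [hs]; exact hcop) (by rw [hs]; exact hm0)
        (by
          intro h
          rw [h, orderOf_one] at hs
          exact hm1 hs.symm) (k := k) (by rw [← hu, pow_orderOf_eq_one]) (by
          intro h
          rw [h, orderOf_one] at hu
          exact (Nat.one_lt_pow hk hp.out.one_lt).ne hu)
      rw [hs] at h1
      by_cases hp2 : p = 2
      · right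
        refine ⟨hp2, ?_⟩
        obtain ⟨h4, h5 | h5⟩ := h3 hp2
        · have h6 : p ^ k ∣ p := by
            rw [← hu, hp2] 
            exact orderOf_dvd_of_pow_eq_one h5
          rw [hn]
          rcases h1 with h1 | h1
          · exact Or.inr (Or.inl (Nat.mul_dvd_mul h6 h1))
          · exact Or.inl (Nat.mul_dvd_mul h6 h1)
        · right; right
          rw [hn, show (12 : ℕ) = 4 * 3 from rfl]
          apply Nat.mul_dvd_mul
          · rw [← hu]
            exact orderOf_dvd_of_pow_eq_one h4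
          · rw [← hs]
            exact orderOf_dvd_of_pow_eq_one h5
      · left
        refine ⟨hp2, ?_⟩
        have h6 : p ^ k ∣ p := by
          rw [← hu]
          exact orderOf_dvd_of_pow_eq_one (h2 hp2)
        rw [hn]
        rcases h1 with h1 | h1
        · exact Or.inr (Nat.mul_dvd_mul h6 h1)
        · exact Or.inl (Nat.mul_dvd_mul h6 h1)

end

end Cfsg.Agent.Lib.ChevPG
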