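import Mathlib

set_option autoImplicit false

/-!
# Arithmetic for the element orders of G₂(q) (helper40)
-/

namespace Cfsg.Agent.Lib.ChevPG13

theorem max_sub {Γ : Type*} [Monoid Γ] {S : Set ℕ} (h1 : ∀ x : Γ, ∃ s ∈ S, orderOf x ∣ s) (h2 : S ⊆ Set.range (orderOf : Γ → ℕ)) :
    {n : ℕ | n ∈ Set.range (orderOf : Γ → ℕ) ∧ ∀ m ∈ Set.range (orderOf : Γ → ℕ), n ∣ m → m = n} ⊆ S := by
  rintro n ⟨⟨x, rfl⟩, h⟩
  obtain ⟨s, hs, hd⟩ := h1 x
  have := h s (h2 hs) hd
  rwa [← this]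

theorem sub_max {Γ : Type*} [Monoid Γ] {S : Set ℕ} (h1 : ∀ x : Γ, ∃ s ∈ S, orderOf x ∣ s) (h2 : S ⊆ Set.range (orderOf : Γ → ℕ))
    (h3 : ∀ s ∈ S, ∀ t ∈ S, s ∣ t → t = s) :
    S ⊆ {n : ℕ | n ∈ Set.range (orderOf : Γ → ℕ) ∧ ∀ m ∈ Set.range (orderOf : Γ → ℕ), n ∣ m → m = n} := by
  intro s hs
  refine ⟨h2 hs, ?_⟩
  rintro m ⟨x, rfl⟩ hd
  obtain ⟨t, ht, hxt⟩ := h1 x
  have h4 := h3 s hs t ht (hd.trans hxt)
  rw [h4] at hxt
  exact Nat.dvd_antisymm hxt hd

theorem not_dvd_between {a b : ℕ} (h1 : a < b) (h2 : b < 2 * a) : ¬ a ∣ b := by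
  rintro ⟨k, rfl⟩
  rcases Nat.lt_or_ge k 2 with hk | hk
  · interval_cases k <;> omega
  · nlinarith

theorem not_dvd_lt {a b : ℕ} (h0 : 0 < b) (h1 : b < a) : ¬ a ∣ b := fun h => absurd (Nat.le_of_dvd h0 h) (not_le_of_gt h1)

theorem anti {p q : ℕ} (hp : p.Prime) (hpq : p ∣ q) (hq : 5 ≤ q) (s t : ℕ)
    (hs : s ∈ [p * (q + 1), p * (q - 1), q ^ 2 - 1, q ^ 2 + q + 1, q ^ 2 - q + 1, p ^ 2])
    (ht : t ∈ [p * (q + 1), p * (q - 1), q ^ 2 - 1, q ^ 2 + q + 1, q ^ 2 - q + 1, p ^ 2]) (h : s ∣ t) : t = s := by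
  obtain ⟨c, hc⟩ : ∃ c, c = q ^ 2 - 1 := ⟨_, rfl⟩
  obtain ⟨f, hf⟩ : ∃ f, f = q ^ 2 - q + 1 := ⟨_, rfl⟩
  have hq2 : 5 * q ≤ q ^ 2 := by nlinarith
  have hc1 : c + 1 = q ^ 2 := by omega
  have hf1 : f + q = q ^ 2 + 1 := by omega
  have hp2 := hp.two_le
  have hple : p ≤ q := Nat.le_of_dvd (by omega) hpq
  have hpq2 : p ∣ q ^ 2 := hpq.trans (dvd_pow_self q (by norm_num))
  have hp1 : ¬ p ∣ 1 := fun h => by
    have := Nat.dvd_one.mp h
    omega
  have nc : ¬ p ∣ c := fun h => hp1 ((Nat.dvd_add_right h).mp (by rw [hc1]; exact hpq2))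
  have nf : ¬ p ∣ f := fun h => hp1 ((Nat.dvd_add_right hpq2).mp (by rw [← hf1]; exact dvd_add h hpq))
  have ne : ¬ p ∣ q ^ 2 + q + 1 := fun h => hp1 ((Nat.dvd_add_right (dvd_add hpq2 hpq)).mp h)
  have nq1 : ¬ p ∣ q + 1 := fun h => hp1 ((Nat.dvd_add_right hpq).mp h)
  have nq2 : ¬ p ∣ q - 1 := fun h => hp1 ((Nat.dvd_add_right h).mp (by rw [Nat.sub_add_cancel (by omega)]; exact hpq))
  have cc : c.Coprime p := ((Nat.Prime.coprime_iff_not_dvd hp).mpr nc).symm
  have cf : f.Coprime p := ((Nat.Prime.coprime_iff_not_dvd hp).mpr nf).symm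
  have ce : (q ^ 2 + q + 1).Coprime p := ((Nat.Prime.coprime_iff_not_dvd hp).mpr ne).symm
  have d1 : ¬ (q - 1) ∣ p := fun h => by
    rcases (Nat.dvd_prime hp).mp h with h | h
    · omega
    · exact nq2 (by rw [h])
  have d2 : ¬ (q + 1) ∣ p := not_dvd_lt (by omega) (by omega)
  have hcf : c = (q - 1) * (q + 1) := by
    obtain ⟨r, rfl⟩ : ∃ r, q = r + 1 := ⟨q - 1, by omega⟩
    rw [Nat.add_sub_cancel]
    have : c + 1 = r * (r + 1 + 1) + 1 := by rw [hc1]; ring
    omega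
  rw [← hc, ← hf] at hs ht
  simp only [List.mem_cons, List.not_mem_nil, or_false] at hs ht
  have hpp : 0 < p := hp.pos
  rcases hs with rfl | rfl | rfl | rfl | rfl | rfl
  · -- A
    rcases ht with rfl | rfl | rfl | rfl | rfl | rfl
    · rfl
    · exact absurd (Nat.dvd_of_mul_dvd_mul_left hpp h) (not_dvd_lt (by omega) (by omega))
    · exact absurd ((dvd_mul_right p _).trans h) nc
    · exact absurd ((dvd_mul_right p _).trans h) ne
    · exact absurd ((dvd_mul_right p _).trans h) nf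
    · rw [sq] at h
      exact absurd (Nat.dvd_of_mul_dvd_mul_left hpp h) d2
  · -- B
    rcases ht with rfl | rfl | rfl | rfl | rfl | rfl
    · have h1 := Nat.dvd_of_mul_dvd_mul_left hpp h
      have h2 : q - 1 ∣ 2 := by
        have h3 : q + 1 = (q - 1) + 2 := by omega
        rw [h3] at h1
        exact (Nat.dvd_add_right (dvd_refl _)).mp h1
      have := Nat.le_of_dvd (by norm_num) h2
      omega
    · rfl
    · exact absurd ((dvd_mul_right p _).trans h) nc
    · exact absurd ((dvd_mul_right p _).trans h) ne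
    · exact absurd ((dvd_mul_right p _).trans h) nf
    · rw [sq] at h
      exact absurd (Nat.dvd_of_mul_dvd_mul_left hpp h) d1
  · -- C
    rcases ht with rfl | rfl | h1 | rfl | rfl | rfl
    · rw [hcf] at h
      exact absurd (Nat.dvd_of_mul_dvd_mul_right (by omega) h) d1
    · rw [hcf, mul_comm] at h
      exact absurd (Nat.dvd_of_mul_dvd_mul_right (by omega) h) d2
    · exact h1
    · exact absurd h (not_dvd_between (by omega) (by omega))
    · exact absurd h (not_dvd_lt (by omega) (by omega))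
    · have := Nat.Coprime.eq_one_of_dvd (cc.pow_right 2) h
      omega
  · -- E
    rcases ht with rfl | rfl | rfl | h1 | rfl | rfl
    · exact absurd (ce.dvd_of_dvd_mul_left h) (not_dvd_lt (by omega) (by omega))
    · exact absurd (ce.dvd_of_dvd_mul_left h) (not_dvd_lt (by omega) (by omega))
    · exact absurd h (not_dvd_lt (by omega) (by omega))
    · exact h1
    · exact absurd h (not_dvd_lt (by omega) (by omega))
    · have := Nat.Coprime.eq_one_of_dvd (ce.pow_right 2) h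
      omega
  · -- F
    rcases ht with rfl | rfl | rfl | rfl | h1 | rfl
    · exact absurd (cf.dvd_of_dvd_mul_left h) (not_dvd_lt (by omega) (by omega))
    · exact absurd (cf.dvd_of_dvd_mul_left h) (not_dvd_lt (by omega) (by omega))
    · exact absurd h (not_dvd_between (by omega) (by omega))
    · exact absurd h (not_dvd_between (by omega) (by omega))
    · exact h1
    · have := Nat.Coprime.eq_one_of_dvd (cf.pow_right 2) h
      omega
  · -- P
    rcases ht with rfl | rfl | rfl | rfl | rfl | rfl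
    · rw [sq] at h
      exact absurd (Nat.dvd_of_mul_dvd_mul_left hpp h) nq1
    · rw [sq] at h
      exact absurd (Nat.dvd_of_mul_dvd_mul_left hpp h) nq2
    · exact absurd ((dvd_pow_self p (by norm_num)).trans h) nc
    · exact absurd ((dvd_pow_self p (by norm_num)).trans h) ne
    · exact absurd ((dvd_pow_self p (by norm_num)).trans h) nf
    · rfl

end Cfsg.Agent.Lib.ChevPG13
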