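import Cfsg.Agent.Lib.ChevPG3
import Cfsg.Agent.S1062

set_option autoImplicit false
set_option maxRecDepth 1000000

/-!
# Element orders of F₄(2^n) (helper40)
-/

namespace Cfsg.Agent.Lib.ChevPG
open Cfsg.Lie Cfsg.Agent.Lib.ChevX Cfsg.Agent.Lib.ChevGood Cfsg.Agent.Lib.ChevRel Cfsg.Agent.Lib.ChevNPerm
  Cfsg.Agent.Lib.ChevPoinc Cfsg.Agent.Lib.ChevTab Cfsg.Agent.Lib.AltW Cfsg.Agent.Lib.AltEnum Cfsg.Agent.Lib.ChevSS
  Cfsg.Agent.Lib.ChevFix Cfsg.Agent.Lib.ChevHOrder Cfsg.Agent.Lib.ChevTorus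
open Cfsg.Agent.Lib.ChevBruhat (Listed)

theorem detF4q (w : Equiv.Perm (Fin chevF4.nroots)) (q : ℤ) :
    Matrix.det (q • (1 : Matrix (Fin chevF4.rank) (Fin chevF4.rank) ℤ) - Rm ChevOkF4.good w) = det4 (ent rF4 (tup ChevOkF4.good w) q) := by
  have h1 : q • (1 : Matrix (Fin chevF4.rank) (Fin chevF4.rank) ℤ) - Rm ChevOkF4.good w =
      -(Matrix.of fun j k : Fin chevF4.rank => ChevOkF4.good.rv (w (simpF ChevOkF4.good j)) k - if j = k then q else 0) := by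
    ext j k
    simp only [Matrix.sub_apply, Matrix.smul_apply, Matrix.one_apply, Matrix.neg_apply, Matrix.of_apply, smul_eq_mul, mul_ite, mul_one, mul_zero]
    change _ - ChevOkF4.good.rv (w (simpF ChevOkF4.good j)) k = _
    ring
  rw [h1, Matrix.det_neg, AltFour.detF4]
  have h2 : Fintype.card (Fin chevF4.rank) = 4 := by rw [Fintype.card_fin]; rfl
  rw [h2]
  norm_num

theorem tup_wl (l : List (Fin chevF4.rank)) : tup ChevOkF4.good (wl ChevOkF4.good l) =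
    (List.finRange chevF4.rank).map fun j : Fin chevF4.rank => l.foldr (fun (i : Fin chevF4.rank) (a : ℕ) => chevF4.reflectRoot i a) (chevF4.simple j) := by
  unfold tup
  apply List.map_congr_left
  intro j _
  rw [wl_val]
  rfl

def tupW (l : List (Fin chevF4.rank)) : List ℕ :=
  (List.finRange chevF4.rank).map fun j : Fin chevF4.rank => l.foldr (fun (i : Fin chevF4.rank) (a : ℕ) => chevF4.reflectRoot i a) (chevF4.simple j)

def cpx (x : List ℕ) : List ℤ := [mi1 (mtx rF4 x), mi2 (mtx rF4 x), mi3 (mtx rF4 x), det4 (mtx rF4 x)]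

local instance : NeZero chevF4.rank := ⟨by decide⟩

/-- words for the odd part -/
def WO : List (List (Fin chevF4.rank) × (List ℤ × List ℕ)) :=
  [([3, 1, 0], ([-1, 0, 1, -1], [1, 2, 3])), ([2, 1, 2, 1, 0], ([0, 0, 0, -1], [1, 2, 4])), ([2, 1, 0], ([1, 0, -1, -1], [1, 2, 6])),
   ([3, 2, 1, 2, 1, 0], ([0, 0, 0, 1], [8])), ([3, 2, 1, 0], ([0, -1, 0, 1], [12]))]

/-- words with a fixed root -/
def WF : List (List (Fin chevF4.rank) × (List ℤ × List ℕ)) :=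
  [([0], ([2, 0, -2, -1], [1, 1, 1, 2])), ([1, 0], ([1, 0, 1, 1], [1, 1, 3])), ([2, 1, 2, 1, 0], ([0, 0, 0, -1], [1, 2, 4])),
   ([2, 1, 0], ([1, 0, -1, -1], [1, 2, 6]))]

theorem WO_ok : ∀ c ∈ WO, c.2 ∈ cpF4 ∧ c.2.1 = cpx (tupW c.1) := by decide +kernel
theorem WF_ok : ∀ c ∈ WF, c.2 ∈ cpF4 ∧ c.2.1 = cpx (tupW c.1) ∧
    c.1.foldr (fun (i : Fin chevF4.rank) (a : ℕ) => chevF4.reflectRoot i a) 0 = 0 := by decide +kernel

theorem word_det {l : List (Fin chevF4.rank)} {e : List ℤ × List ℕ} (he : e ∈ cpF4) (h : e.1 = cpx (tupW l)) (q : ℤ) :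
    Matrix.det (q • (1 : Matrix (Fin chevF4.rank) (Fin chevF4.rank) ℤ) - Rm ChevOkF4.good (wl ChevOkF4.good l)) = (e.2.map (Phi q)).prod := by
  have h5 : det4 (ent rF4 (tup ChevOkF4.good (wl ChevOkF4.good l)) q) = _ := det4_sub (mtx rF4 (tup ChevOkF4.good (wl ChevOkF4.good l))) q
  have h6 : tup ChevOkF4.good (wl ChevOkF4.good l) = tupW l := tup_wl l
  rw [detF4q, h5, ← cpF4_prod e he q, h, h6]
  simp [cpx]

/-- the exceptional pairs -/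
def bad (k l : ℕ) : Prop := (k < l ∧ (l ∈ ({8, 12} : Finset ℕ) ∨ (l = 6 ∧ k ∈ ({3, 4} : Finset ℕ)) ∨ (l = 4 ∧ k = 3))) ∨
  (l < k ∧ (k ∈ ({8, 12} : Finset ℕ) ∨ (k = 6 ∧ l ∈ ({3, 4} : Finset ℕ)) ∨ (k = 4 ∧ l = 3)))

instance (k l : ℕ) : Decidable (bad k l) := by unfold bad; infer_instance

theorem pick : ∀ k ∈ idx, ∀ l ∈ idx, bad k l ∨ ∃ c ∈ WO, k ∈ c.2.2 ∧ l ∈ c.2.2 := by decide +kernel
theorem pickF : ∀ k ∈ [2, 3, 4, 6], ∃ c ∈ WF, k ∈ c.2.2 := by decide +kernel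

theorem cp_idx : ∀ e ∈ cpF4, ∀ m ∈ e.2, m ∈ idx := by decide +kernel

/-- the possible orders of `q` modulo the prime divisors of the value of the `m`-th cyclotomic polynomial -/
def exc (m : ℕ) : List ℕ := m :: ((if m = 3 then [1] else []) ++ (if m = 6 then [2] else []))

theorem not_bad : ∀ e ∈ cpF4, ∀ m ∈ e.2, ∀ m' ∈ e.2, ∀ k ∈ exc m, ∀ k' ∈ exc m', ¬ bad k k' := by decide +kernel

theorem exc_of_dvd {r : ℕ} [Fact r.Prime] (h2 : r ≠ 2) {q : ℕ} {m : ℕ} (hm : m ∈ idx) (h : (r : ℤ) ∣ Phi q m) :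
    orderOf (q : ZMod r) ∈ exc m := by
  unfold exc
  rcases order_of_dvd h2 hm h with h1 | ⟨h1, h3⟩ | ⟨h1, h3⟩
  · rw [h1]; simp
  · rw [h3, h1]; simp
  · rw [h3, h1]; simp

theorem top_eight : ∀ e ∈ cpF4, ∀ m ∈ e.2, ∀ k ∈ exc m, k = 8 ∨ k = 12 → e.1.getD 3 0 = 1 := by decide +kernel

theorem dvd_prod_iff {r : ℕ} [hr : Fact r.Prime] {q : ℤ} {l : List ℕ} : (r : ℤ) ∣ (l.map (Phi q)).prod ↔ ∃ m ∈ l, (r : ℤ) ∣ Phi q m := by
  rw [(Nat.prime_iff_prime_int.mp hr.out).dvd_prod_iff]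
  constructor
  · rintro ⟨a, ha, hd⟩
    obtain ⟨m, hm, rfl⟩ := List.mem_map.mp ha
    exact ⟨m, hm, hd⟩
  · rintro ⟨m, hm, hd⟩
    exact ⟨_, List.mem_map.mpr ⟨m, hm, rfl⟩, hd⟩

/-- the eigenvalues of a rational semisimple element -/
theorem char_dvd {K : Type*} [Field K] {q : ℕ} {χ : Fin chevF4.nroots → Kˣ} {w : Equiv.Perm (Fin chevF4.nroots)} (hw : w ∈ Wg ChevOkF4.good)
    (hχ : χ ∈ TwG ChevOkF4.good K q w) (h0 : orderOf χ ≠ 0) : ∃ e ∈ cpF4, e.1.getD 3 0 = det4 (ent rF4 (tup ChevOkF4.good w) 0) ∧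
      ∀ (r : ℕ) [Fact r.Prime], r ∣ orderOf χ → ∃ m ∈ e.2, (r : ℤ) ∣ Phi q m := by
  obtain ⟨e, he, h1, h2⟩ := charF4 hw
  refine ⟨e, he, h1, fun r hr hrd => ?_⟩
  rw [← dvd_prod_iff, ← h2]
  obtain ⟨a, ha, hea⟩ := AltUn.eigen_mod ChevOkF4.good h0 hχ.1 hχ.2 (fun s => by
      have := congrFun (pow_orderOf_eq_one χ) s
      simpa using this) (fun k hk => by
      apply orderOf_dvd_of_pow_eq_one
      funext s
      rw [Pi.pow_apply, hχ.1 s, Pi.one_apply, ← Finset.prod_pow]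
      apply Finset.prod_eq_one
      intro j _
      rw [← zpow_natCast, ← zpow_mul, mul_comm, zpow_mul, zpow_natCast, hk j, one_zpow]) r hrd
  by_contra hcon
  refine no_eigen (fun j k => ChevOkF4.good.rv (w (simpF ChevOkF4.good j)) k) r q ?_ a ha hea
  rw [AltFour.detF4]
  exact hcon

section
variable {F K : Type*} [Field F] [Fintype F] [Field K] [IsAlgClosed K] {p q : ℕ} [hp : Fact p.Prime] [CharP K p] (Z : SetupF F K p q)
include Z

omit [Fintype F] [IsAlgClosed K] [CharP K p] in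
theorem dvd_q : p ∣ q ∧ 1 < q := by
  rw [Z.hq]
  exact ⟨dvd_pow_self p Z.e0, Nat.one_lt_pow Z.e0 hp.out.one_lt⟩

theorem exists_rs {l : List (Fin chevF4.rank)} {e : List ℤ × List ℕ} (he : e ∈ cpF4) (h : e.1 = cpx (tupW l))
    (r s : ℕ) [Fact r.Prime] [Fact s.Prime] (hrs : r ≠ s) (h1 : orderOf (q : ZMod r) ∈ e.2) (h2 : orderOf (q : ZMod s) ∈ e.2) :
    ∃ x ∈ chevF4.group F, orderOf x = r * s := by
  obtain ⟨hpq, hq1⟩ := dvd_q Z
  have hdet := word_det he h q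
  have hr : (r : ℤ) ∣ Matrix.det ((q : ℤ) • (1 : Matrix (Fin chevF4.rank) (Fin chevF4.rank) ℤ) - Rm ChevOkF4.good (wl ChevOkF4.good l)) := by
    rw [hdet]
    exact dvd_prod_iff.mpr ⟨_, h1, dvd_of_order (cp_idx e he _ h1) rfl⟩
  have hs : (s : ℤ) ∣ Matrix.det ((q : ℤ) • (1 : Matrix (Fin chevF4.rank) (Fin chevF4.rank) ℤ) - Rm ChevOkF4.good (wl ChevOkF4.good l)) := by
    rw [hdet]
    exact dvd_prod_iff.mpr ⟨_, h2, dvd_of_order (cp_idx e he _ h2) rfl⟩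
  obtain ⟨χ, hχ, ho⟩ := exists_two_order (K := K) p hpq hq1 ⟨wl ChevOkF4.good l, wl_mem ChevOkF4.good l⟩ r s hrs hr hs
  obtain ⟨g, -, t, -, x, hx, -, -, -, hxo⟩ := exists_elt Z (by simp [Listed]) cdF4 l hχ
  exact ⟨x, hx, by rw [hxo, ho]⟩

/-- commuting elements of orders 2 and `s` -/
theorem exists_2s (h2 : (2 : K) = 0) (s : ℕ) [hs : Fact s.Prime] (h1 : orderOf (q : ZMod s) ∈ [2, 3, 4, 6]) :
    ∃ x ∈ chevF4.group F, ∃ y ∈ chevF4.group F, orderOf x = s ∧ orderOf y = 2 ∧ x * y = y * x := by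
  obtain ⟨hpq, hq1⟩ := dvd_q Z
  obtain ⟨c, hc, hm⟩ := pickF _ h1
  obtain ⟨he, hx, h0⟩ := WF_ok c hc
  have hdet := word_det he hx q
  have hs1 : (s : ℤ) ∣ Matrix.det ((q : ℤ) • (1 : Matrix (Fin chevF4.rank) (Fin chevF4.rank) ℤ) - Rm ChevOkF4.good (wl ChevOkF4.good c.1)) := by
    rw [hdet]
    exact dvd_prod_iff.mpr ⟨_, hm, dvd_of_order (cp_idx _ he _ hm) rfl⟩
  obtain ⟨χ, hχ, ho⟩ := exists_prime_order (K := K) p hpq hq1 ⟨wl ChevOkF4.good c.1, wl_mem ChevOkF4.good c.1⟩ s hs1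
  have hr0 : wl ChevOkF4.good c.1 ⟨0, by decide⟩ = ⟨0, by decide⟩ := by
    apply Fin.ext
    rw [wl_val]
    exact h0
  have hχ1 : χ ⟨0, by decide⟩ = 1 := by
    have e1 := hχ.2 ⟨0, by decide⟩
    rw [hr0] at e1
    have e2 : χ ⟨0, by decide⟩ ^ s = 1 := by
      have := congrFun (pow_orderOf_eq_one χ) ⟨0, by decide⟩
      rw [ho] at this
      exact this
    have e3 : χ ⟨0, by decide⟩ ^ (q - 1) = 1 := by
      have e4 : χ ⟨0, by decide⟩ ^ (q - 1) * χ ⟨0, by decide⟩ = 1 * χ ⟨0, by decide⟩ := by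
        rw [← pow_succ, Nat.sub_add_cancel hq1.le, one_mul, ← e1]
      exact mul_right_cancel e4
    have e5 : orderOf (χ ⟨0, by decide⟩) ∣ s := orderOf_dvd_of_pow_eq_one e2
    have e6 : orderOf (χ ⟨0, by decide⟩) ∣ q - 1 := orderOf_dvd_of_pow_eq_one e3
    rcases (Nat.dvd_prime hs.out).mp e5 with e7 | e7
    · exact orderOf_eq_one_iff.mp e7
    · exfalso
      rw [e7] at e6
      have e8 : (q : ZMod s) = 1 := by
        have := (ZMod.natCast_eq_zero_iff (q - 1) s).mpr e6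
        rw [Nat.cast_sub hq1.le, Nat.cast_one, sub_eq_zero] at this
        exact this
      rw [e8, orderOf_one] at h1
      simp at h1
  obtain ⟨x, hx', y, hy, hxo, hyo, hc⟩ := exists_comm Z (by simp [Listed]) cdF4 h2 c.1 hχ hr0 hχ1
  exact ⟨x, hx', y, hy, by rw [hxo, ho], hyo, hc⟩

end

end Cfsg.Agent.Lib.ChevPG
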