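import Cfsg.Agent.Lib.ChevPG4

set_option autoImplicit false
set_option maxRecDepth 1000000

/-!
# Element orders of F₄(2^n), continued (helper40)
-/

namespace Cfsg.Agent.Lib.ChevPG
open Cfsg.Lie Cfsg.Agent.Lib.ChevX Cfsg.Agent.Lib.ChevGood Cfsg.Agent.Lib.ChevRel Cfsg.Agent.Lib.ChevNPerm
  Cfsg.Agent.Lib.ChevPoinc Cfsg.Agent.Lib.ChevTab Cfsg.Agent.Lib.AltW Cfsg.Agent.Lib.AltEnum Cfsg.Agent.Lib.ChevSS
  Cfsg.Agent.Lib.ChevFix Cfsg.Agent.Lib.ChevHOrder Cfsg.Agent.Lib.ChevTorus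
open Cfsg.Agent.Lib.ChevBruhat (Listed)

local instance : NeZero chevF4.rank := ⟨by decide⟩

theorem det_refl (j : Fin chevF4.rank) : (Rm ChevOkF4.good (refl ChevOkF4.good j)).det = -1 := by
  have h1 := detF4q (refl ChevOkF4.good j) 0
  rw [zero_smul, zero_sub, Matrix.det_neg] at h1
  have h2 : Fintype.card (Fin chevF4.rank) = 4 := by rw [Fintype.card_fin]; rfl
  rw [h2] at h1
  have h3 : tup ChevOkF4.good (refl ChevOkF4.good j) = tupW [j] := by
    have := tup_wl [j]
    have h4 : wl ChevOkF4.good [j] = refl ChevOkF4.good j := by simp [wl]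
    rw [h4] at this
    exact this
  rw [h3] at h1
  have h4 : ∀ j : Fin chevF4.rank, det4 (ent rF4 (tupW [j]) 0) = -1 := by decide +kernel
  rw [h4] at h1
  linarith

section
variable {F K : Type*} [Field F] [Fintype F] [Field K] [IsAlgClosed K] {p q : ℕ} [hp : Fact p.Prime] [CharP K p] (Z : SetupF F K p q)
include Z

/-- commuting elements of orders 2 and `s`, for `s` dividing `q - 1` -/
theorem exists_2s_one (h2 : (2 : K) = 0) (s : ℕ) [hs : Fact s.Prime] (hsp : s ≠ p) (h1 : orderOf (q : ZMod s) = 1) :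
    ∃ x ∈ chevF4.group F, ∃ y ∈ chevF4.group F, orderOf x = s ∧ orderOf y = 2 ∧ x * y = y * x := by
  have hsK : NeZero (s : K) := ⟨fun h => hsp ((Nat.prime_dvd_prime_iff_eq hp.out hs.out).mp ((CharP.cast_eq_zero_iff K p s).mp h)).symm⟩
  obtain ⟨ζ, hζ⟩ := HasEnoughRootsOfUnity.exists_primitiveRoot K s
  obtain ⟨a, rfl⟩ : ∃ a : Kˣ, (a : K) = ζ := ⟨Units.mk0 ζ (hζ.ne_zero hs.out.ne_zero), rfl⟩
  have ha : orderOf a = s := by
    rw [← orderOf_units]
    exact hζ.eq_orderOf.symm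
  have hq1 := (dvd_q Z).2
  have haq : a ^ q = a := by
    have e1 : s ∣ q - 1 := by
      rw [← ZMod.natCast_eq_zero_iff, Nat.cast_sub hq1.le, Nat.cast_one, sub_eq_zero]
      exact orderOf_eq_one_iff.mp h1
    have e2 : a ^ (q - 1) = 1 := by
      rw [← ha] at e1
      exact orderOf_dvd_iff_pow_eq_one.mp e1
    calc a ^ q = a ^ (q - 1) * a := by rw [← pow_succ, Nat.sub_add_cancel hq1.le]
      _ = a := by rw [e2, one_mul]
  set χ : Fin chevF4.nroots → Kˣ := fun r => a ^ ChevOkF4.good.rv r 0 with hχ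
  have i0 : Fin chevF4.rank := ⟨0, by decide⟩
  have hmem : χ ∈ TwG ChevOkF4.good K q (wl ChevOkF4.good []) := by
    refine ⟨fun s => ?_, fun s => ?_⟩
    · rw [Finset.prod_eq_single (⟨0, by decide⟩ : Fin chevF4.rank)]
      · simp only [hχ]
        rw [rv_simpF, if_pos rfl, zpow_one]
      · intro j _ hj
        simp only [hχ]
        rw [rv_simpF, if_neg (fun h => hj (Fin.ext h.symm)), zpow_zero, one_zpow]
      · intro h; exact absurd (Finset.mem_univ _) h
    · simp only [hχ]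
      change a ^ ChevOkF4.good.rv s 0 = _
      rw [← zpow_natCast, ← zpow_mul, mul_comm, zpow_mul, zpow_natCast, haq]
  have hr1 : χ (simpF ChevOkF4.good ⟨1, by decide⟩) = 1 := by
    simp only [hχ]
    rw [rv_simpF, if_neg (by decide), zpow_zero]
  have ho : orderOf χ = s := by
    apply orderOf_eq_prime
    · funext r
      rw [Pi.pow_apply]
      simp only [hχ]
      rw [← zpow_natCast, ← zpow_mul, mul_comm, zpow_mul, zpow_natCast, ← ha, pow_orderOf_eq_one, one_zpow]
      rfl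
    · intro h
      have h3 := congrFun h (simpF ChevOkF4.good ⟨0, by decide⟩)
      simp only [hχ] at h3
      rw [rv_simpF, if_pos rfl, zpow_one] at h3
      have h4 : a = 1 := h3
      rw [h4, orderOf_one] at ha
      exact hs.out.one_lt.ne ha
  obtain ⟨x, hx', y, hy, hxo, hyo, hc⟩ := exists_comm Z (by simp [Listed]) cdF4 h2 [] hmem (r := simpF ChevOkF4.good ⟨1, by decide⟩) rfl hr1
  exact ⟨x, hx', y, hy, by rw [hxo, ho], hyo, hc⟩

/-- semisimple elements with orders from the two large tori are regular -/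
theorem regular {χ : Fin chevF4.nroots → Kˣ} {w : Equiv.Perm (Fin chevF4.nroots)} (hw : w ∈ Wg ChevOkF4.good)
    (hχ : χ ∈ TwG ChevOkF4.good K q w) (s : ℕ) [hs : Fact s.Prime] (hs2 : s ≠ 2) (ho : orderOf χ = s)
    (he : orderOf (q : ZMod s) = 8 ∨ orderOf (q : ZMod s) = 12) (r : Fin chevF4.nroots) : χ r ≠ 1 := by
  intro hr
  have key : ∀ w ∈ Wg ChevOkF4.good, χ ∈ TwG ChevOkF4.good K q w → (Rm ChevOkF4.good w).det = 1 := by
    intro w hw hχ
    obtain ⟨e, hec, h1, h2⟩ := char_dvd hw hχ (by rw [ho]; exact hs.out.ne_zero)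
    obtain ⟨m, hm, hd⟩ := h2 s (by rw [ho])
    have h3 := exc_of_dvd hs2 (cp_idx e hec m hm) hd
    have h4 := top_eight e hec m hm _ h3 he
    have h5 := detF4q w 0
    rw [zero_smul, zero_sub, Matrix.det_neg, ← h1, h4] at h5
    have h6 : Fintype.card (Fin chevF4.rank) = 4 := by rw [Fintype.card_fin]; rfl
    rw [h6] at h5
    linarith
  obtain ⟨u, hu, j, h3⟩ := tw_refl ChevOkF4.good hχ hr
  have h4 := key w hw hχ
  have h5 := key _ (mul_mem hw (mul_mem (mul_mem hu (refl_mem ChevOkF4.good j)) (inv_mem hu))) h3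
  have h6 : (Rm ChevOkF4.good u).det * (Rm ChevOkF4.good u⁻¹).det = 1 := by
    rw [← Matrix.det_mul, ← Rm_mul ChevOkF4.good (inv_mem hu), inv_mul_cancel, Rm_one, Matrix.det_one]
  rw [Rm_mul ChevOkF4.good hw, Matrix.det_mul, Rm_mul ChevOkF4.good (mul_mem hu (refl_mem ChevOkF4.good j)), Matrix.det_mul,
    Rm_mul ChevOkF4.good hu, Matrix.det_mul, det_refl, h4] at h5
  nlinarith

/-- no involution commutes with them -/
theorem no_2s (hp2 : p = 2) {x y : GL chevF4.Idx F} (hx : x ∈ chevF4.group F) (hy : y ∈ chevF4.group F) (s : ℕ) [hs : Fact s.Prime] (hs2 : s ≠ 2)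
    (hxo : orderOf x = s) (he : orderOf (q : ZMod s) = 8 ∨ orderOf (q : ZMod s) = 12) (hyo : y ^ 2 = 1) (hc : x * y = y * x) : y = 1 := by
  have hsc : s.Coprime p := by rw [hp2]; exact (Nat.coprime_primes hs.out Nat.prime_two).mpr hs2
  obtain ⟨g, hg, t, ht, w, hw, χ, hχ, htχ, hxe, ho⟩ := exists_char Z (by simp [Listed]) noMinF4 cdF4 hx (by rw [hxo]; exact hsc)
  rw [hxo] at ho
  have hreg := regular Z hw hχ s hs2 ho.symm he
  set z := g⁻¹ * em chevF4 Z.ι y * g with hz
  have hzG : z ∈ chevF4.group K := mul_mem (mul_mem (inv_mem hg) (em_group ChevOkF4.good _ hy)) hg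
  have hcz : t * z = z * t := by
    have h1 : em chevF4 Z.ι x * em chevF4 Z.ι y = em chevF4 Z.ι y * em chevF4 Z.ι x := by rw [← map_mul, ← map_mul, hc]
    rw [hxe] at h1
    calc t * z = g⁻¹ * (g * t * g⁻¹ * em chevF4 Z.ι y) * g := by rw [hz]; group
      _ = g⁻¹ * (em chevF4 Z.ι y * (g * t * g⁻¹)) * g := by rw [h1]
      _ = z * t := by rw [hz]; group
  obtain ⟨w', hw', hzN, hfix⟩ := mem_T_of_commute ChevOkF4.good (by simp [Listed]) ht (fun s h => hreg s (Units.ext (by rw [← htχ, h, Units.val_one]))) hzG hcz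
  have hsK : NeZero (s : K) := ⟨fun h => by
    have := (Nat.prime_dvd_prime_iff_eq hp.out hs.out).mp ((CharP.cast_eq_zero_iff K p s).mp h)
    exact hs2 (this ▸ hp2)⟩
  have hto : t ^ s = 1 := by
    have h1 := order_eq ChevOkF4.good ht htχ
    rw [← ho] at h1
    rw [← h1, pow_orderOf_eq_one]
  have h1 := stab_torus ChevOkF4.good noMinF4 cdF4 ht hs.out.ne_zero (Nat.coprime_one_right s) hto (mem_Wg_of_mono ChevOkF4.good hzN hw') hfix
  have h2 : w' = 1 := by
    have h3 : RG ChevOkF4.good (fun s => rval t s = 1) = ⊥ := by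
      unfold RG
      rw [Subgroup.closure_eq_bot_iff]
      rintro _ ⟨u, -, j, hj, -⟩
      exact absurd hj (fun h => hreg _ (Units.ext (by rw [← htχ, h, Units.val_one])))
    rw [h3] at h1
    exact Subgroup.mem_bot.mp h1
  rw [h2] at hw'
  have hzT := mem_diag_of_one ChevOkF4.good hzN hw'
  have hz2 : z ^ 2 = 1 := by
    have : em chevF4 Z.ι y * em chevF4 Z.ι y = 1 := by rw [← map_mul, ← sq, hyo, map_one]
    calc z ^ 2 = g⁻¹ * (em chevF4 Z.ι y * em chevF4 Z.ι y) * g := by rw [sq, hz]; group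
      _ = 1 := by rw [this]; group
  have h20 : (2 : K) = 0 := by
    have := CharP.cast_eq_zero K p
    rw [hp2] at this
    exact_mod_cast this
  have hz1 : z = 1 := by
    apply ext_rval ChevOkF4.good hzT (one_mem _)
    intro r
    rw [rval_one ChevOkF4.good]
    have h3 : rval z r ^ 2 = 1 := by rw [← rval_pow ChevOkF4.good hzT, hz2, rval_one ChevOkF4.good]
    have h4 : (rval z r - 1) ^ 2 = 0 := by
      linear_combination h3 - (rval z r - 1) * h20
    exact sub_eq_zero.mp (pow_eq_zero_iff (two_ne_zero)|>.mp h4)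
  apply em_injective (D := chevF4) Z.ι
  rw [map_one]
  calc em chevF4 Z.ι y = g * z * g⁻¹ := by rw [hz]; group
    _ = 1 := by rw [hz1]; group

/-- the prime divisors of the orders -/
theorem pair_not_bad {x : GL chevF4.Idx F} (hx : x ∈ chevF4.group F) (hxo : (orderOf x).Coprime p) (h0 : orderOf x ≠ 0) (r s : ℕ) [Fact r.Prime] [Fact s.Prime]
    (hr2 : r ≠ 2) (hs2 : s ≠ 2) (hr : r ∣ orderOf x) (hs : s ∣ orderOf x) : ¬ bad (orderOf (q : ZMod r)) (orderOf (q : ZMod s)) := by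
  obtain ⟨g, hg, t, ht, w, hw, χ, hχ, htχ, hxe, ho⟩ := exists_char Z (by simp [Listed]) noMinF4 cdF4 hx hxo
  obtain ⟨e, hec, h1, h2⟩ := char_dvd hw hχ (by rw [← ho]; exact h0)
  obtain ⟨m, hm, hd⟩ := h2 r (by rw [← ho]; exact hr)
  obtain ⟨m', hm', hd'⟩ := h2 s (by rw [← ho]; exact hs)
  exact not_bad e hec m hm m' hm' _ (exc_of_dvd hr2 (cp_idx e hec m hm) hd) _ (exc_of_dvd hs2 (cp_idx e hec m' hm') hd')

end

/-- the orders of `q` modulo the prime divisors of the group order -/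
theorem order_mem_idx {F : Type*} [Field F] [Fintype F] {n : ℕ} (hF : Fintype.card F = 2 ^ n) {r : ℕ} [hr : Fact r.Prime] (hr2 : r ≠ 2)
    (hrG : r ∣ Nat.card ↥(chevF4.group F)) : orderOf ((Fintype.card F : ℕ) : ZMod r) ∈ idx := by
  set q := Fintype.card F with hq
  rw [S1062.result hq.symm] at hrG
  have hq1 : 1 ≤ q := Fintype.card_pos
  have key : ∀ k, r ∣ q ^ k - 1 → orderOf ((q : ℕ) : ZMod r) ∣ k := by
    intro k h
    apply orderOf_dvd_of_pow_eq_one
    have h1 := (ZMod.natCast_eq_zero_iff (q ^ k - 1) r).mpr h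
    rw [Nat.cast_sub (Nat.one_le_pow _ _ hq1), Nat.cast_one, sub_eq_zero, Nat.cast_pow] at h1
    exact h1
  have h12 : orderOf ((q : ℕ) : ZMod r) ∣ 12 ∨ orderOf ((q : ℕ) : ZMod r) ∣ 8 := by
    rcases (Nat.Prime.dvd_mul hr.out).mp hrG with h | h
    · rcases (Nat.Prime.dvd_mul hr.out).mp h with h | h
      · rcases (Nat.Prime.dvd_mul hr.out).mp h with h | h
        · rcases (Nat.Prime.dvd_mul hr.out).mp h with h | h
          · exfalso
            have h1 := hr.out.dvd_of_dvd_pow h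
            rw [hF] at h1
            exact hr2 ((Nat.prime_dvd_prime_iff_eq hr.out Nat.prime_two).mp (hr.out.dvd_of_dvd_pow h1))
          · exact Or.inl ((key 2 h).trans (by norm_num))
        · exact Or.inl ((key 6 h).trans (by norm_num))
      · exact Or.inr (key 8 h)
    · exact Or.inl (key 12 h)
  have h3 : ∀ k ∈ Nat.divisors 12 ∪ Nat.divisors 8, k ∈ idx := by decide
  apply h3
  rw [Finset.mem_union, Nat.mem_divisors, Nat.mem_divisors]
  rcases h12 with h | h
  · exact Or.inl ⟨h, by norm_num⟩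
  · exact Or.inr ⟨h, by norm_num⟩

end Cfsg.Agent.Lib.ChevPG
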