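import Cfsg.Agent.Lib.ChevPG7
import Cfsg.Agent.Lib.ChevPG2

set_option autoImplicit false
set_option maxRecDepth 1000000

/-!
# The group G₂: semisimple elements (helper40)
-/

namespace Cfsg.Agent.Lib.ChevPG
open Cfsg.Lie Cfsg.Agent.Lib.ChevX Cfsg.Agent.Lib.ChevGood Cfsg.Agent.Lib.ChevRel Cfsg.Agent.Lib.ChevNPerm
  Cfsg.Agent.Lib.ChevPoinc Cfsg.Agent.Lib.ChevClosed Cfsg.Agent.Lib.ChevSS Cfsg.Agent.Lib.ChevFix Cfsg.Agent.Lib.ChevTab
  Cfsg.Agent.Lib.AltW Cfsg.Agent.Lib.AltEnum Cfsg.Agent.Lib.ChevTorus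
open Cfsg.Agent.Lib.ChevBruhat (Listed)

/-- matrix entries of a tuple -/
def mg (x : List ℕ) (j k : ℕ) : ℤ := (rG2.getD (x.getD j 0) []).getD k 0

/-- coordinates of a root -/
def rg (r k : ℕ) : ℤ := (rG2.getD r []).getD k 0

/-- `r · A` -/
def ra (x : List ℕ) (r k : ℕ) : ℤ := rg r 0 * mg x 0 k + rg r 1 * mg x 1 k

/-- `A²` -/
def sqm (x : List ℕ) (j k : ℕ) : ℤ := mg x j 0 * mg x 0 k + mg x j 1 * mg x 1 k

def dl (j k : ℕ) : ℤ := if j = k then 1 else 0

theorem chkT : ∀ x ∈ lG2, (∀ j < 2, ∀ k < 2, sqm x j k = dl j k) ∨ (∀ j < 2, ∀ k < 2, sqm x j k + mg x j k + dl j k = 0) ∨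
    (∀ j < 2, ∀ k < 2, sqm x j k + dl j k = mg x j k) := by decide +kernel

def smallI : List ℤ := [-6, -5, -4, -3, -2, -1, 0, 1, 2, 3, 4, 5, 6]

theorem chkR : ∀ x ∈ lG2, ∀ r < 12, (rg r 0 * ra x r 1 - rg r 1 * ra x r 0) ∈ ([1, -1, 2, -2, 3, -3] : List ℤ) ∨
    ∃ δ ∈ ([1, -1] : List ℤ), ∀ j < 2, ∃ k ∈ smallI, mg x j 0 - δ * dl j 0 = k * rg r 0 ∧ mg x j 1 - δ * dl j 1 = k * rg r 1 := by decide +kernel

theorem chkS : ∀ x ∈ lG2, x = [7, 6] ∨ x = [4, 5] ∨ ∃ r ∈ [6, 7, 8, 9, 10, 11], (ra x r 0 ≤ 0 ∧ ra x r 1 ≤ 0) ∧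
    ∃ a ∈ smallI, ∃ b ∈ smallI, rg r 0 = a * (mg x 0 0 - 1) + b * mg x 1 0 ∧ rg r 1 = a * mg x 0 1 + b * (mg x 1 1 - 1) := by decide +kernel

theorem rg_neg : ∀ s < 12, rg s 0 ≤ 0 → rg s 1 ≤ 0 → s < 6 := by decide +kernel

theorem rv_rg (s : Fin chevG2.nroots) (k : ℕ) (hk : k < 2) : ChevOkG2.good.rv s k = rg s k := rG2_eq s s.2 k hk

theorem tup_mem {w : Equiv.Perm (Fin chevG2.nroots)} (hw : w ∈ Wg ChevOkG2.good) : tup ChevOkG2.good w ∈ lG2 := enum_mem ChevOkG2.good enumG2 hw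

theorem mg_tup (w : Equiv.Perm (Fin chevG2.nroots)) (j : Fin chevG2.rank) (k : ℕ) : mg (tup ChevOkG2.good w) j k = rg (w (simpF ChevOkG2.good j)) k := by
  unfold mg rg
  rw [AltFour.tup_getD]

theorem rg_w {w : Equiv.Perm (Fin chevG2.nroots)} (hw : w ∈ Wg ChevOkG2.good) (r : Fin chevG2.nroots) (k : ℕ) (hk : k < 2) :
    rg (w r) k = ra (tup ChevOkG2.good w) r k := by
  rw [← rv_rg _ k hk, lin_of_mem ChevOkG2.good hw r k]
  have h2 : ∀ f : Fin chevG2.rank → ℤ, ∑ j, f j = f ⟨0, by decide⟩ + f ⟨1, by decide⟩ := fun f => Fin.sum_univ_two f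
  rw [h2]
  unfold ra
  have e0 := mg_tup w ⟨0, by decide⟩ k
  have e1 := mg_tup w ⟨1, by decide⟩ k
  rw [show mg (tup ChevOkG2.good w) 0 k = _ from e0, show mg (tup ChevOkG2.good w) 1 k = _ from e1, ← rv_rg _ k hk, ← rv_rg _ k hk,
    ← rv_rg r 0 (by norm_num), ← rv_rg r 1 (by norm_num)]

/-- the character as a monomial -/
theorem chi_G2 {C : Type*} [CommGroup C] {χ : Fin chevG2.nroots → C} (h : ∀ s, χ s = ∏ j : Fin chevG2.rank, χ (simpF ChevOkG2.good j) ^ ChevOkG2.good.rv s j)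
    (s : Fin chevG2.nroots) : χ s = χ ⟨7, by decide⟩ ^ rg s 0 * χ ⟨6, by decide⟩ ^ rg s 1 := by
  rw [h s]
  have h2 : ∀ f : Fin chevG2.rank → C, ∏ j, f j = f ⟨0, by decide⟩ * f ⟨1, by decide⟩ := fun f => Fin.prod_univ_two f
  rw [h2, ← rv_rg s 0 (by norm_num), ← rv_rg s 1 (by norm_num)]
  rfl

theorem mono_pow {C : Type*} [CommGroup C] {X Y : C} {a b c d : ℤ} {q : ℤ} (h0 : X ^ a * Y ^ b = X ^ q) (h1 : X ^ c * Y ^ d = Y ^ q) (u v : ℤ) :
    X ^ (u * a + v * c) * Y ^ (u * b + v * d) = (X ^ u * Y ^ v) ^ q := by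
  calc X ^ (u * a + v * c) * Y ^ (u * b + v * d) = (X ^ a * Y ^ b) ^ u * (X ^ c * Y ^ d) ^ v := by
        rw [zpow_add, zpow_add, mul_zpow, mul_zpow, ← zpow_mul, ← zpow_mul, ← zpow_mul, ← zpow_mul, mul_comm a u, mul_comm c v, mul_comm b u, mul_comm d v]
        exact mul_mul_mul_comm _ _ _ _
    _ = _ := by rw [h0, h1, mul_zpow, ← zpow_mul, ← zpow_mul, ← zpow_mul, ← zpow_mul, mul_comm q u, mul_comm q v]

theorem ac6 {C : Type*} [CommGroup C] (P U R Q S V : C) : P * U * R * (Q * S * V) = P * Q * U * (R * S * V) := by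
  simp only [mul_comm, mul_left_comm, mul_assoc]

section
variable {C : Type*} [CommGroup C] {q : ℕ} {w : Equiv.Perm (Fin chevG2.nroots)} {χ : Fin chevG2.nroots → C}
  (h : ∀ s, χ s = ∏ j : Fin chevG2.rank, χ (simpF ChevOkG2.good j) ^ ChevOkG2.good.rv s j) (hw : w ∈ Wg ChevOkG2.good)
include h hw

/-- the relation for the fundamental roots -/
theorem rel_G2 {q : ℤ} (h2 : ∀ s, χ (w s) = χ s ^ q) : χ ⟨7, by decide⟩ ^ mg (tup ChevOkG2.good w) 0 0 * χ ⟨6, by decide⟩ ^ mg (tup ChevOkG2.good w) 0 1 = χ ⟨7, by decide⟩ ^ q ∧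
    χ ⟨7, by decide⟩ ^ mg (tup ChevOkG2.good w) 1 0 * χ ⟨6, by decide⟩ ^ mg (tup ChevOkG2.good w) 1 1 = χ ⟨6, by decide⟩ ^ q := by
  have e0 := mg_tup w ⟨0, by decide⟩
  have e1 := mg_tup w ⟨1, by decide⟩
  constructor
  · have := e0 0
    rw [show mg (tup ChevOkG2.good w) 0 0 = _ from e0 0, show mg (tup ChevOkG2.good w) 0 1 = _ from e0 1, ← chi_G2 h]
    exact h2 _
  · rw [show mg (tup ChevOkG2.good w) 1 0 = _ from e1 0, show mg (tup ChevOkG2.good w) 1 1 = _ from e1 1, ← chi_G2 h]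
    exact h2 _

omit hw in
theorem chi_pow_eq_one {n : ℕ} (h7 : χ ⟨7, by decide⟩ ^ n = 1) (h6 : χ ⟨6, by decide⟩ ^ n = 1) : χ ^ n = 1 := by
  funext s
  rw [Pi.pow_apply, chi_G2 h s, mul_pow, ← zpow_natCast, ← zpow_natCast, ← zpow_mul, ← zpow_mul, mul_comm (rg s 0), mul_comm (rg s 1),
    zpow_mul, zpow_mul, zpow_natCast, zpow_natCast, h7, h6, one_zpow, one_zpow, one_mul]
  rfl

/-- orders of semisimple elements of `G₂(q)` -/
theorem order_ss (hq : 1 ≤ q) (h2 : ∀ s, χ (w s) = χ s ^ q) : orderOf χ ∣ q ^ 2 - 1 ∨ orderOf χ ∣ q ^ 2 + q + 1 ∨ orderOf χ ∣ q ^ 2 - q + 1 := by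
  have hq2 : q ≤ q ^ 2 := Nat.le_self_pow (by norm_num) q
  obtain ⟨r0, r1⟩ := rel_G2 h hw (q := (q : ℤ)) (fun s => by rw [h2, zpow_natCast])
  set x := tup ChevOkG2.good w with hx
  set X := χ ⟨7, by decide⟩ with hX
  set Y := χ ⟨6, by decide⟩ with hY
  -- the squares
  have s0 : X ^ sqm x 0 0 * Y ^ sqm x 0 1 = X ^ ((q : ℤ) ^ 2) := by
    unfold sqm
    rw [mono_pow r0 r1, r0, ← zpow_mul, ← sq]
  have s1 : X ^ sqm x 1 0 * Y ^ sqm x 1 1 = Y ^ ((q : ℤ) ^ 2) := by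
    unfold sqm
    rw [mono_pow r0 r1, r1, ← zpow_mul, ← sq]
  rcases chkT x (tup_mem hw) with h3 | h3 | h3
  · left
    apply orderOf_dvd_of_pow_eq_one
    have a00 := h3 0 (by norm_num) 0 (by norm_num)
    have a01 := h3 0 (by norm_num) 1 (by norm_num)
    have a10 := h3 1 (by norm_num) 0 (by norm_num)
    have a11 := h3 1 (by norm_num) 1 (by norm_num)
    simp only [dl] at a00 a01 a10 a11
    norm_num at a00 a01 a10 a11
    rw [a00, a01, zpow_one, zpow_zero, mul_one] at s0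
    rw [a10, a11, zpow_one, zpow_zero, one_mul] at s1
    apply chi_pow_eq_one h
    · rw [← hX, ← zpow_natCast, Nat.cast_sub (by nlinarith), zpow_sub]
      push_cast
      rw [← s0]; simp
    · rw [← hY, ← zpow_natCast, Nat.cast_sub (by nlinarith), zpow_sub]
      push_cast
      rw [← s1]; simp
  · right; left
    apply orderOf_dvd_of_pow_eq_one
    have a00 := h3 0 (by norm_num) 0 (by norm_num)
    have a01 := h3 0 (by norm_num) 1 (by norm_num)
    have a10 := h3 1 (by norm_num) 0 (by norm_num)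
    have a11 := h3 1 (by norm_num) 1 (by norm_num)
    simp only [dl] at a00 a01 a10 a11
    norm_num at a00 a01 a10 a11
    apply chi_pow_eq_one h
    · rw [← hX, ← zpow_natCast]
      push_cast
      rw [zpow_add, zpow_add, ← s0, ← r0, zpow_one]
      calc X ^ sqm x 0 0 * Y ^ sqm x 0 1 * (X ^ mg x 0 0 * Y ^ mg x 0 1) * X = X ^ (sqm x 0 0 + mg x 0 0 + 1) * Y ^ (sqm x 0 1 + mg x 0 1) := by
            rw [zpow_add, zpow_add, zpow_add, zpow_one]
            simp only [mul_comm, mul_left_comm, mul_assoc]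
        _ = 1 := by rw [a00, a01]; simp
    · rw [← hY, ← zpow_natCast]
      push_cast
      rw [zpow_add, zpow_add, ← s1, ← r1, zpow_one]
      calc X ^ sqm x 1 0 * Y ^ sqm x 1 1 * (X ^ mg x 1 0 * Y ^ mg x 1 1) * Y = X ^ (sqm x 1 0 + mg x 1 0) * Y ^ (sqm x 1 1 + mg x 1 1 + 1) := by
            rw [zpow_add, zpow_add, zpow_add, zpow_one]
            simp only [mul_comm, mul_left_comm, mul_assoc]
        _ = 1 := by rw [a10, a11]; simp
  · right; right
    apply orderOf_dvd_of_pow_eq_one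
    have a00 := h3 0 (by norm_num) 0 (by norm_num)
    have a01 := h3 0 (by norm_num) 1 (by norm_num)
    have a10 := h3 1 (by norm_num) 0 (by norm_num)
    have a11 := h3 1 (by norm_num) 1 (by norm_num)
    simp only [dl] at a00 a01 a10 a11
    norm_num at a00 a01 a10 a11
    apply chi_pow_eq_one h
    · rw [← hX, ← zpow_natCast]
      have e : (((q ^ 2 - q + 1 : ℕ)) : ℤ) = (q : ℤ) ^ 2 + 1 - q := by
        rw [Nat.cast_add, Nat.cast_sub hq2]; push_cast; ring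
      rw [e, zpow_sub, zpow_add, ← s0, ← r0, zpow_one, mul_inv_eq_one, ← a00, ← a01, zpow_add, zpow_one]
      simp only [mul_comm, mul_left_comm, mul_assoc]
    · rw [← hY, ← zpow_natCast]
      have e : (((q ^ 2 - q + 1 : ℕ)) : ℤ) = (q : ℤ) ^ 2 + 1 - q := by
        rw [Nat.cast_add, Nat.cast_sub hq2]; push_cast; ring
      rw [e, zpow_sub, zpow_add, ← s1, ← r1, zpow_one, mul_inv_eq_one, ← a10, ← a11, zpow_add, zpow_one]
      simp only [mul_comm, mul_left_comm, mul_assoc]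

/-- semisimple elements centralizing a root subgroup -/
theorem order_fix (hq : 1 ≤ q) (h2 : ∀ s, χ (w s) = χ s ^ q) {r : Fin chevG2.nroots} (hr : χ r = 1)
    (h2q : orderOf χ = 2 → 2 ∣ q - 1) (h3q : orderOf χ = 3 → 3 ∣ q - 1 ∨ 3 ∣ q + 1) : orderOf χ ∣ q - 1 ∨ orderOf χ ∣ q + 1 := by
  obtain ⟨r0, r1⟩ := rel_G2 h hw (q := (q : ℤ)) (fun s => by rw [h2, zpow_natCast])
  rw [chi_G2 h r] at hr
  set x := tup ChevOkG2.good w with hx
  set X := χ ⟨7, by decide⟩ with hX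
  set Y := χ ⟨6, by decide⟩ with hY
  rcases chkR x (tup_mem hw) r r.2 with h3 | ⟨δ, hδ, h3⟩
  · have hra : X ^ ra x r 0 * Y ^ ra x r 1 = 1 := by
      unfold ra
      rw [mono_pow r0 r1, hr, one_zpow]
    set d := rg r 0 * ra x r 1 - rg r 1 * ra x r 0 with hd
    have hXd : X ^ d = 1 := by
      calc X ^ d = (X ^ rg r 0 * Y ^ rg r 1) ^ ra x r 1 * ((X ^ ra x r 0 * Y ^ ra x r 1) ^ rg r 1)⁻¹ := by
            rw [hd, zpow_sub, mul_zpow, mul_zpow, ← zpow_mul, ← zpow_mul, ← zpow_mul, ← zpow_mul, mul_inv, mul_comm (rg r 1) (ra x r 0),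
              mul_comm (rg r 1) (ra x r 1)]
            generalize X ^ (rg r 0 * ra x r 1) = a
            generalize Y ^ (ra x r 1 * rg r 1) = b
            generalize X ^ (ra x r 0 * rg r 1) = c
            rw [mul_comm c⁻¹ b⁻¹, mul_assoc, mul_inv_cancel_left]
        _ = 1 := by rw [hr, hra]; simp
    have hYd : Y ^ d = 1 := by
      calc Y ^ d = (X ^ ra x r 0 * Y ^ ra x r 1) ^ rg r 0 * ((X ^ rg r 0 * Y ^ rg r 1) ^ ra x r 0)⁻¹ := by
            rw [hd, zpow_sub, mul_zpow, mul_zpow, ← zpow_mul, ← zpow_mul, ← zpow_mul, ← zpow_mul, mul_inv, mul_comm (rg r 0) (ra x r 0),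
              mul_comm (rg r 0) (ra x r 1)]
            generalize Y ^ (ra x r 1 * rg r 0) = a
            generalize X ^ (ra x r 0 * rg r 0) = b
            generalize Y ^ (rg r 1 * ra x r 0) = c
            rw [mul_comm b a, mul_assoc, mul_inv_cancel_left]
        _ = 1 := by rw [hr, hra]; simp
    have hn : orderOf χ ∣ d.natAbs := by
      apply orderOf_dvd_of_pow_eq_one
      apply chi_pow_eq_one h
      · rw [← hX, pow_natAbs_eq_one]; exact hXd
      · rw [← hY, pow_natAbs_eq_one]; exact hYd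
    have h4 : orderOf χ = 1 ∨ orderOf χ = 2 ∨ orderOf χ = 3 := by
      have h5 : d.natAbs = 1 ∨ d.natAbs = 2 ∨ d.natAbs = 3 := by
        simp only [List.mem_cons, List.not_mem_nil, or_false] at h3
        rcases h3 with h3 | h3 | h3 | h3 | h3 | h3 <;> rw [h3] <;> simp
      rcases h5 with h5 | h5 | h5 <;> rw [h5] at hn
      · exact Or.inl (Nat.dvd_one.mp hn)
      · rcases (Nat.dvd_prime Nat.prime_two).mp hn with h6 | h6
        · exact Or.inl h6
        · exact Or.inr (Or.inl h6)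
      · rcases (Nat.dvd_prime Nat.prime_three).mp hn with h6 | h6
        · exact Or.inl h6
        · exact Or.inr (Or.inr h6)
    rcases h4 with h4 | h4 | h4
    · rw [h4]; exact Or.inl (one_dvd _)
    · rw [h4]; exact Or.inl (h2q h4)
    · rw [h4]; exact h3q h4
  · have hj : ∀ j < 2, ∀ Z : C, X ^ mg x j 0 * Y ^ mg x j 1 = Z ^ q → X ^ (δ * dl j 0) * Y ^ (δ * dl j 1) = Z ^ q := by
      intro j hj Z hZ
      obtain ⟨k, -, h4, h5⟩ := h3 j hj
      have e0 : mg x j 0 = δ * dl j 0 + k * rg r 0 := by linarith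
      have e1 : mg x j 1 = δ * dl j 1 + k * rg r 1 := by linarith
      have h6 : X ^ (k * rg r 0) * Y ^ (k * rg r 1) = 1 := by
        rw [mul_comm k, mul_comm k, zpow_mul, zpow_mul, ← mul_zpow, hr, one_zpow]
      rw [← hZ, e0, e1, zpow_add, zpow_add, mul_mul_mul_comm, h6, mul_one]
    have g0 := hj 0 (by norm_num) X (by rw [r0, zpow_natCast])
    have g1 := hj 1 (by norm_num) Y (by rw [r1, zpow_natCast])
    simp only [dl] at g0 g1
    norm_num at g0 g1
    simp only [List.mem_cons, List.not_mem_nil, or_false] at hδ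
    rcases hδ with rfl | rfl
    · left
      apply orderOf_dvd_of_pow_eq_one
      rw [zpow_one] at g0 g1
      apply chi_pow_eq_one h
      · rw [← hX]
        have : X ^ (q - 1) * X = 1 * X := by rw [← pow_succ, Nat.sub_add_cancel hq, ← g0, one_mul]
        exact mul_right_cancel this
      · rw [← hY]
        have : Y ^ (q - 1) * Y = 1 * Y := by rw [← pow_succ, Nat.sub_add_cancel hq, ← g1, one_mul]
        exact mul_right_cancel this
    · right
      apply orderOf_dvd_of_pow_eq_one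
      apply chi_pow_eq_one h
      · rw [← hX, pow_succ, ← g0]; simp
      · rw [← hY, pow_succ, ← g1]; simp

end

/-- elements of the Weyl group fixing a torus element and its positive roots -/
theorem fix_pos {F : Type*} [Field F] {t : GL chevG2.Idx F} (ht : t ∈ chevG2.diagonalSubgroup F) {w : Equiv.Perm (Fin chevG2.nroots)}
    (hw : w ∈ Wg ChevOkG2.good) (h : ∀ s, rval t (w s) = rval t s) (hpos : ∀ s, Pos chevG2 s → rval t s = 1 → Pos chevG2 (w s)) : w = 1 := by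
  -- pass to units
  set χ : Fin chevG2.nroots → Fˣ := fun s => Units.mk0 (rval t s) (rval_ne_zero ChevOkG2.good ht s) with hχ
  have hlin : ∀ s, χ s = ∏ j : Fin chevG2.rank, χ (simpF ChevOkG2.good j) ^ ChevOkG2.good.rv s j := by
    intro s
    apply Units.ext
    rw [Units.coe_prod]
    simp only [hχ, Units.val_zpow_eq_zpow_val, Units.val_mk0]
    exact rval_prod ChevOkG2.good ht s
  have hval : ∀ s, χ s = 1 ↔ rval t s = 1 := by
    intro s
    rw [← Units.val_eq_one]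
    rfl
  have hfix : ∀ s, χ (w s) = χ s := fun s => Units.ext (h s)
  obtain ⟨r0, r1⟩ := rel_G2 hlin hw (q := 1) (fun s => by rw [hfix, zpow_one])
  rw [zpow_one] at r0 r1
  have hnegr : ∀ s : Fin chevG2.nroots, (s : ℕ) < 6 → ¬ Pos chevG2 s := fun s hs hp => by
    have : 6 ≤ (s : ℕ) := hp
    omega
  have hposr : ∀ s : Fin chevG2.nroots, 6 ≤ (s : ℕ) → Pos chevG2 s := fun s hs => hs
  rcases chkS _ (tup_mem hw) with h3 | h3 | ⟨r, hr, ⟨h4, h5⟩, a, -, b, -, e0, e1⟩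
  · apply eq_one_of_pos ChevOkG2.good hw
    intro j
    have h4 := AltFour.tup_getD ChevOkG2.good w j
    rw [h3] at h4
    apply hposr
    rw [← h4]
    have h5 : ∀ j : Fin chevG2.rank, 6 ≤ ([7, 6] : List ℕ).getD j 0 := by decide
    exact h5 j
  · exfalso
    have w7 : (w ⟨7, by decide⟩ : ℕ) = 4 := by
      have := AltFour.tup_getD ChevOkG2.good w ⟨0, by decide⟩
      rw [h3] at this
      exact this.symm
    have w6 : (w ⟨6, by decide⟩ : ℕ) = 5 := by
      have := AltFour.tup_getD ChevOkG2.good w ⟨1, by decide⟩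
      rw [h3] at this
      exact this.symm
    have x2 : χ ⟨7, by decide⟩ ^ 2 = 1 := by
      have h6 : χ (w ⟨7, by decide⟩) = (χ ⟨7, by decide⟩)⁻¹ := by
        rw [chi_G2 hlin (w ⟨7, by decide⟩), w7]
        simp [rg, rG2]
      rw [hfix] at h6
      rw [sq]
      nth_rewrite 1 [h6]
      simp
    have y2 : χ ⟨6, by decide⟩ ^ 2 = 1 := by
      have h6 : χ (w ⟨6, by decide⟩) = (χ ⟨6, by decide⟩)⁻¹ := by
        rw [chi_G2 hlin (w ⟨6, by decide⟩), w6]
        simp [rg, rG2]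
      rw [hfix] at h6
      rw [sq]
      nth_rewrite 1 [h6]
      simp
    have x3 : rval t ⟨7, by decide⟩ ^ 2 = 1 := congrArg Units.val x2
    have y3 : rval t ⟨6, by decide⟩ ^ 2 = 1 := congrArg Units.val y2
    have key : ∀ z : F, z ^ 2 = 1 → z = 1 ∨ z = -1 := by
      intro z hz
      have : (z - 1) * (z + 1) = 0 := by linear_combination hz
      rcases mul_eq_zero.mp this with h | h
      · exact Or.inl (sub_eq_zero.mp h)
      · exact Or.inr (eq_neg_of_add_eq_zero_left h)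
    rcases key _ x3 with hx | hx
    · exact hnegr _ (by rw [w7]; norm_num) (hpos _ (hposr _ (by norm_num)) hx)
    rcases key _ y3 with hy | hy
    · exact hnegr _ (by rw [w6]; norm_num) (hpos _ (hposr _ (by norm_num)) hy)
    have h8 : rval t ⟨8, by decide⟩ = 1 := by
      rw [rval_G2 ht, hx, hy]
      simp [rG2]
    have h9 := hpos ⟨8, by decide⟩ (hposr _ (by norm_num)) h8
    have h10 : (w ⟨8, by decide⟩ : ℕ) < 6 := by
      apply rg_neg _ (w ⟨8, by decide⟩).2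
      · rw [rg_w hw _ 0 (by norm_num), h3]; decide
      · rw [rg_w hw _ 1 (by norm_num), h3]; decide
    exact hnegr _ h10 h9
  · exfalso
    have hr12 : r < 12 ∧ 6 ≤ r := by
      simp only [List.mem_cons, List.not_mem_nil, or_false] at hr
      omega
    have h6 : χ ⟨r, hr12.1⟩ = 1 := by
      rw [chi_G2 hlin]
      change χ _ ^ rg r 0 * χ _ ^ rg r 1 = 1
      rw [e0, e1]
      set x := tup ChevOkG2.good w
      set X := χ ⟨7, by decide⟩
      set Y := χ ⟨6, by decide⟩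
      calc X ^ (a * (mg x 0 0 - 1) + b * mg x 1 0) * Y ^ (a * mg x 0 1 + b * (mg x 1 1 - 1))
          = (X ^ mg x 0 0 * Y ^ mg x 0 1) ^ a * (X ^ a)⁻¹ * ((X ^ mg x 1 0 * Y ^ mg x 1 1) ^ b * (Y ^ b)⁻¹) := by
            rw [show a * (mg x 0 0 - 1) + b * mg x 1 0 = mg x 0 0 * a + (-a) + mg x 1 0 * b by ring,
              show a * mg x 0 1 + b * (mg x 1 1 - 1) = mg x 0 1 * a + mg x 1 1 * b + (-b) by ring, zpow_add, zpow_add, zpow_add, zpow_add,
              zpow_neg, zpow_neg, zpow_mul, zpow_mul, zpow_mul, zpow_mul, mul_zpow, mul_zpow]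
            exact ac6 _ _ _ _ _ _
        _ = 1 := by rw [r0, r1]; simp
    have h7 : (w ⟨r, hr12.1⟩ : ℕ) < 6 := by
      apply rg_neg _ (w ⟨r, hr12.1⟩).2
      · rw [rg_w hw _ 0 (by norm_num)]; exact h4
      · rw [rg_w hw _ 1 (by norm_num)]; exact h5
    exact hnegr _ h7 (hpos _ (hposr _ hr12.2) ((hval _).mp h6))

end Cfsg.Agent.Lib.ChevPG
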