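import Cfsg.Agent.Lib.ChevPG8
import Cfsg.Agent.Lib.ChevStd

set_option autoImplicit false
set_option maxRecDepth 100000

/-!
# Mixed elements of G₂(q) (helper40)
-/

namespace Cfsg.Agent.Lib.ChevPG
open Cfsg.Lie Cfsg.Agent.Lib.ChevX Cfsg.Agent.Lib.ChevGood Cfsg.Agent.Lib.ChevRel Cfsg.Agent.Lib.ChevNPerm
  Cfsg.Agent.Lib.ChevPoinc Cfsg.Agent.Lib.ChevClosed Cfsg.Agent.Lib.ChevSS Cfsg.Agent.Lib.ChevFix Cfsg.Agent.Lib.ChevTorus
open Cfsg.Agent.Lib.ChevBruhat (Listed)

/-! ### descent to a finite subfield -/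

section
variable {D : ChevalleyDatum} {F K : Type*} [Field F] [Field K] {p q : ℕ} [hp : Fact p.Prime] [CharP K p] (Z : SetupF F K p q)

omit [CharP K p] hp in
theorem sigma_pow (m : ℕ) (x : K) : (Z.σ ^ m : RingAut K) x = x ^ p ^ (Z.e * m) := by
  induction m generalizing x with
  | zero => simp
  | succ m ih =>
    rw [pow_succ, RingAut.mul_apply, ih, Z.hσ, ← pow_mul, ← pow_add, Nat.mul_succ, add_comm]

/-- the fixed field of a power of the Frobenius map -/
def LL (m : ℕ) : Subfield K := RingHom.eqLocusField (((Z.σ ^ m : RingAut K) : K ≃+* K) : K →+* K) (RingHom.id K)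

omit [CharP K p] hp in
theorem mem_LL {m : ℕ} {x : K} : x ∈ LL Z m ↔ x ^ p ^ (Z.e * m) = x := by
  rw [← sigma_pow Z]
  exact Iff.rfl

omit [CharP K p] in
theorem finite_LL {m : ℕ} (hm : m ≠ 0) : Finite (LL Z m) := by
  classical
  have hn : 1 < p ^ (Z.e * m) := Nat.one_lt_pow (Nat.mul_ne_zero Z.e0 hm) hp.out.one_lt
  have h1 : (Polynomial.X ^ p ^ (Z.e * m) - Polynomial.X : Polynomial K) ≠ 0 := by
    intro h
    have h2 := congrArg Polynomial.natDegree h
    rw [Polynomial.natDegree_sub_eq_left_of_natDegree_lt (by rw [Polynomial.natDegree_X, Polynomial.natDegree_X_pow]; exact hn),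
      Polynomial.natDegree_X_pow, Polynomial.natDegree_zero] at h2
    omega
  have h2 : ((LL Z m : Set K)).Finite := by
    apply Set.Finite.subset (Polynomial.X ^ p ^ (Z.e * m) - Polynomial.X : Polynomial K).roots.toFinset.finite_toSet
    intro x hx
    rw [Finset.mem_coe, Multiset.mem_toFinset, Polynomial.mem_roots h1]
    simp only [Polynomial.IsRoot.def, Polynomial.eval_sub, Polynomial.eval_pow, Polynomial.eval_X]
    rw [mem_LL Z |>.mp hx, sub_self]
  exact h2.to_subtype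

/-- the setup over the fixed field -/
def ZL {m : ℕ} (hm : m ≠ 0) : SetupF (LL Z m) K p (p ^ (Z.e * m)) where
  e := Z.e * m
  e0 := Nat.mul_ne_zero Z.e0 hm
  hq := rfl
  ι := (LL Z m).subtype
  σ := (Z.σ ^ m : RingAut K)
  hσ := sigma_pow Z m
  hfix := fun x => ⟨fun h => ⟨⟨x, (mem_LL Z).mpr (by rw [← sigma_pow Z]; exact h)⟩, rfl⟩, by
    rintro ⟨y, rfl⟩
    rw [sigma_pow Z]
    exact (mem_LL Z).mp y.2⟩
  hfin := Z.hfin

/-- the embedding of the small field -/
def jL (m : ℕ) : F →+* LL Z m := Z.ι.codRestrict (LL Z m) fun x => by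
  rw [mem_LL Z]
  have h1 : Z.ι x ^ p ^ Z.e = Z.ι x := by
    rw [← Z.hσ]
    exact (Z.hfix _).mpr ⟨x, rfl⟩
  induction m with
  | zero => simp
  | succ m ih => rw [Nat.mul_succ, pow_add, pow_mul, ih, h1]

omit [CharP K p] hp in
theorem subtype_jL (m : ℕ) : (LL Z m).subtype.comp (jL Z m) = Z.ι := rfl

omit [CharP K p] hp in
theorem pow_fix {a : K} {m : ℕ} (h : a ^ p ^ m = a) (k : ℕ) : a ^ p ^ (m * k) = a := by
  induction k with
  | zero => simp
  | succ k ih => rw [Nat.mul_succ, pow_add, pow_mul, ih, h]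

omit [CharP K p] in
include Z in
theorem descend (S : List (GL D.Idx K)) : ∃ m : ℕ, m ≠ 0 ∧ ∀ g ∈ S, em D (((Z.σ ^ m : RingAut K) : K ≃+* K) : K →+* K) g = g := by
  have key : ∀ g : GL D.Idx K, ∃ m : ℕ, m ≠ 0 ∧ ∀ i j, (g : Matrix D.Idx D.Idx K) i j ^ p ^ m = (g : Matrix D.Idx D.Idx K) i j := by
    intro g
    choose f hf using fun ij : D.Idx × D.Idx => Z.hfin ((g : Matrix D.Idx D.Idx K) ij.1 ij.2)
    refine ⟨∏ ij, f ij, Finset.prod_ne_zero_iff.mpr fun ij _ => (hf ij).1, fun i j => ?_⟩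
    obtain ⟨k, hk⟩ := Finset.dvd_prod_of_mem f (Finset.mem_univ (i, j))
    rw [hk]
    exact pow_fix (hf (i, j)).2 k
  have h2 : ∃ m : ℕ, m ≠ 0 ∧ ∀ g ∈ S, ∀ i j, (g : Matrix D.Idx D.Idx K) i j ^ p ^ m = (g : Matrix D.Idx D.Idx K) i j := by
    induction S with
    | nil => exact ⟨1, one_ne_zero, fun g hg => by simp at hg⟩
    | cons g S ih =>
      obtain ⟨m, hm, h⟩ := ih
      obtain ⟨m', hm', h'⟩ := key g
      refine ⟨m * m', Nat.mul_ne_zero hm hm', fun x hx i j => ?_⟩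
      rcases List.mem_cons.mp hx with rfl | hx
      · rw [mul_comm]; exact pow_fix (h' i j) m
      · exact pow_fix (h x hx i j) m'
  obtain ⟨m, hm, h⟩ := h2
  refine ⟨m, hm, fun g hg => ?_⟩
  apply Units.ext
  ext i j
  change (Z.σ ^ m : RingAut K) ((g : Matrix D.Idx D.Idx K) i j) = _
  rw [sigma_pow Z, mul_comm]
  exact pow_fix (h g hg i j) Z.e

end

/-! ### p-elements of centralizers -/

section
variable {L : Type*} [Field L] [Finite L] (p : ℕ) [hp : Fact p.Prime] [CharP L p]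

omit [Finite L] in
theorem torus_p {n : GL chevG2.Idx L} (hn : n ∈ chevG2.diagonalSubgroup L) {k : ℕ} (h : n ^ p ^ k = 1) : n = 1 := by
  apply ext_rval ChevOkG2.good hn (one_mem _)
  intro s
  rw [rval_one ChevOkG2.good]
  have h1 : rval n s ^ p ^ k = 1 := by rw [← rval_pow ChevOkG2.good hn, h, rval_one ChevOkG2.good]
  have h2 : (rval n s - 1) ^ p ^ k = 0 := by
    rw [sub_pow_char_pow, h1, one_pow, sub_self]
  exact sub_eq_zero.mp (pow_eq_zero_iff (pow_ne_zero _ hp.out.ne_zero) |>.mp h2)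

omit [Finite L] in
/-- a `p`-element of the centralizer normalizing its positive part lies in it -/
theorem norm_pos {t : GL chevG2.Idx L} (ht : t ∈ chevG2.diagonalSubgroup L) {c : GL chevG2.Idx L} (hc : c ∈ cen chevG2 t) {k : ℕ} (hck : c ^ p ^ k = 1)
    (hn : ∀ x ∈ chevG2.posUnipotent L, x ∈ cen chevG2 t → c * x * c⁻¹ ∈ chevG2.posUnipotent L) : c ∈ chevG2.posUnipotent L := by
  set G := ChevOkG2.good with hG
  have hD : Listed chevG2 := by simp [Listed]
  obtain ⟨u, hu, n, hnN, w, hw, hnt, hwt, u', hu', rfl⟩ := cen_bruhat G hD ht hc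
  have hgc := gen_le_cen G ht
  have hu1 : u ∈ chevG2.posUnipotent L := by
    rw [← XS_posS G]; exact XS_mono Set.inter_subset_left hu
  have hu'1 : u' ∈ chevG2.posUnipotent L := by
    rw [← XS_posS G]
    exact XS_mono (fun r hr => (ChevOrder.closed_Inv G L hw.1).pos r hr.1) hu'
  have huc : u ∈ cen chevG2 t := hgc (XS_le_gen (fun s hs => hs.2) hu)
  have hu'c : u' ∈ cen chevG2 t := hgc (XS_le_gen (fun s hs => hs.2) hu')
  -- n normalizes
  have hnn : ∀ x ∈ chevG2.posUnipotent L, x ∈ cen chevG2 t → n * x * n⁻¹ ∈ chevG2.posUnipotent L := by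
    intro x hx hxc
    have h1 := hn (u'⁻¹ * x * u') (mul_mem (mul_mem (inv_mem hu'1) hx) hu'1) (mul_mem (mul_mem (inv_mem hu'c) hxc) hu'c)
    have h2 : n * x * n⁻¹ = u⁻¹ * (u * n * u' * (u'⁻¹ * x * u') * (u * n * u')⁻¹) * u := by group
    rw [h2]
    exact mul_mem (mul_mem (inv_mem hu1) h1) hu1
  have hw1 : w = 1 := by
    apply fix_pos ht (mem_Wg_of_mono G hnN hw) hwt
    intro s hs hs1
    by_contra hneg
    have h1 : xg chevG2 L s 1 ∈ chevG2.posUnipotent L := by
      rw [← XS_posS G]; exact xg_mem_XS hs 1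
    have h2 : xg chevG2 L s 1 ∈ cen chevG2 t := hgc (xg_mem_gen hs1 1)
    have h3 := hnn _ h1 h2
    obtain ⟨-, c', hc', -, hc2⟩ := hw
    rw [hc2 s 1] at h3
    have h4 : xg chevG2 L (w s) (c' s * 1) ∈ chevG2.negUnipotent L := by
      rw [← XS_negS G]; exact xg_mem_XS hneg _
    have h5 : xg chevG2 L (w s) (c' s * 1) ∈ chevG2.posUnipotent L ⊓ chevG2.negUnipotent L := ⟨h3, h4⟩
    rw [ChevStd.U_inf_V G, Subgroup.mem_bot] at h5
    have h6 := (xg_eq_one_iff G (w s).2 _).mp h5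
    rw [mul_one] at h6
    exact hc' s h6
  rw [hw1] at hw
  have hnT := mem_diag_of_one G hnN hw
  have hconj : ∀ {h x : GL chevG2.Idx L}, h ∈ chevG2.diagonalSubgroup L → x ∈ chevG2.posUnipotent L → h * x * h⁻¹ ∈ chevG2.posUnipotent L := by
    intro h x hh hx
    rw [← XS_posS G] at hx ⊢
    exact ChevBruhat.diag_conj_XS G hh hx
  have h1 : u * n * u' = (u * (n * u' * n⁻¹)) * n := by group
  have h2 : u * (n * u' * n⁻¹) ∈ chevG2.posUnipotent L := mul_mem hu1 (hconj hnT hu'1)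
  set v := u * (n * u' * n⁻¹) with hv
  rw [h1] at hck ⊢
  have h3 : ∀ m : ℕ, ∃ y ∈ chevG2.posUnipotent L, (v * n) ^ m = y * n ^ m := by
    intro m
    induction m with
    | zero => exact ⟨1, one_mem _, by simp⟩
    | succ m ih =>
      obtain ⟨y, hy, h⟩ := ih
      refine ⟨y * (n ^ m * v * (n ^ m)⁻¹), mul_mem hy (hconj (pow_mem hnT m) h2), ?_⟩
      rw [pow_succ, h, pow_succ]
      group
  obtain ⟨y, hy, h4⟩ := h3 (p ^ k)
  rw [hck] at h4
  have h5 : n ^ p ^ k = 1 := by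
    have h6 : y = (n ^ p ^ k)⁻¹ := eq_inv_of_mul_eq_one_left h4.symm
    have h7 : y = 1 := ChevBruhat.inf_UH G hD hy (by rw [h6]; exact inv_mem (pow_mem hnT _))
    rw [h7, one_mul] at h4
    exact h4.symm
  rw [torus_p p hnT h5, mul_one]
  exact h2

/-- **p-elements of the centralizer are conjugate to positive ones** -/
theorem sylow_cen {t : GL chevG2.Idx L} (ht : t ∈ chevG2.diagonalSubgroup L) {v : GL chevG2.Idx L} (hv : v ∈ cen chevG2 t) {k : ℕ} (hvk : v ^ p ^ k = 1) :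
    ∃ c ∈ cen chevG2 t, c * v * c⁻¹ ∈ chevG2.posUnipotent L := by
  have : Finite (GL chevG2.Idx L) := inferInstance
  set C := cen chevG2 t with hC
  set P : Subgroup C := (chevG2.posUnipotent L).subgroupOf C with hP
  have h6 : 6 ≤ p ^ 3 := by
    have := hp.out.two_le
    calc 6 ≤ 2 ^ 3 := by norm_num
      _ ≤ p ^ 3 := Nat.pow_le_pow_left this 3
  have hPp : IsPGroup p P := by
    intro x
    refine ⟨3, ?_⟩
    have h1 := U_expG2 p 3 h6 (u := ((x : C) : GL chevG2.Idx L)) x.2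
    apply Subtype.ext
    apply Subtype.ext
    exact h1
  obtain ⟨S, hS⟩ := hPp.exists_le_sylow
  have hSP : (S : Subgroup C) = P := by
    by_contra hne
    have hlt : P < (S : Subgroup C) := lt_of_le_of_ne hS (Ne.symm hne)
    have hnil : Group.IsNilpotent (S : Subgroup C) := IsPGroup.isNilpotent S.2
    have hnc : NormalizerCondition (S : Subgroup C) := Group.normalizerCondition_of_isNilpotent
    have hne' : P.subgroupOf (S : Subgroup C) < ⊤ := by
      rw [lt_top_iff_ne_top]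
      intro h
      rw [Subgroup.subgroupOf_eq_top] at h
      exact absurd h (not_le_of_gt hlt)
    have h2 := hnc _ hne'
    obtain ⟨c, hcn, hcP⟩ := SetLike.exists_of_lt h2
    apply hcP
    rw [Subgroup.mem_subgroupOf, hP, Subgroup.mem_subgroupOf]
    obtain ⟨j, hj⟩ := S.2 c
    refine norm_pos p ht (c : C).2 (k := j) ?_ ?_
    · have := congrArg (fun z : (S : Subgroup C) => ((z : C) : GL chevG2.Idx L)) hj
      exact this
    · intro x hx hxc
      have hxS : (⟨x, hxc⟩ : C) ∈ (S : Subgroup C) := hS (by rw [hP, Subgroup.mem_subgroupOf]; exact hx)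
      have h3 := (Subgroup.mem_normalizer_iff.mp hcn ⟨⟨x, hxc⟩, hxS⟩).mp (by
        rw [Subgroup.mem_subgroupOf, hP, Subgroup.mem_subgroupOf]; exact hx)
      rw [Subgroup.mem_subgroupOf, hP, Subgroup.mem_subgroupOf] at h3
      exact h3
  have hZ : IsPGroup p (Subgroup.zpowers (⟨v, hv⟩ : C)) := by
    rw [IsPGroup.iff_orderOf]
    intro x
    have h1 : x ^ p ^ k = 1 := by
      obtain ⟨m, hm⟩ := Subgroup.mem_zpowers_iff.mp x.2
      apply Subtype.ext
      rw [Subgroup.coe_pow, ← hm, ← zpow_natCast, ← zpow_mul, mul_comm, zpow_mul, zpow_natCast]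
      have : (⟨v, hv⟩ : C) ^ p ^ k = 1 := Subtype.ext hvk
      rw [this, one_zpow]; rfl
    obtain ⟨j, -, hj⟩ := (Nat.dvd_prime_pow hp.out).mp (orderOf_dvd_of_pow_eq_one h1)
    exact ⟨j, hj⟩
  obtain ⟨Q, hQ⟩ := hZ.exists_le_sylow
  obtain ⟨c, hc⟩ := MulAction.exists_smul_eq C Q S
  refine ⟨c, c.2, ?_⟩
  have h1 : c * ⟨v, hv⟩ * c⁻¹ ∈ (S : Subgroup C) := by
    rw [← hc, Sylow.coe_subgroup_smul]
    exact ⟨⟨v, hv⟩, hQ (Subgroup.mem_zpowers _), rfl⟩
  rw [hSP, hP, Subgroup.mem_subgroupOf] at h1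
  exact h1

end

/-! ### mixed elements -/

section
variable {F K : Type*} [Field F] [Fintype F] [Field K] [IsAlgClosed K] {p q : ℕ} [hp : Fact p.Prime] [CharP K p] (Z : SetupF F K p q)
include Z

/-- **the orders of the parts of a mixed element of `G₂(q)`** -/
theorem mixed {s u : GL chevG2.Idx F} (hs : s ∈ chevG2.group F) (hu : u ∈ chevG2.group F) (hsu : s * u = u * s) (hso : (orderOf s).Coprime p)
    (hs0 : orderOf s ≠ 0) (hs1 : s ≠ 1) {k : ℕ} (huk : u ^ p ^ k = 1) (hu1 : u ≠ 1) :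
    (orderOf s ∣ q - 1 ∨ orderOf s ∣ q + 1) ∧ (p ≠ 2 → u ^ p = 1) ∧ (p = 2 → u ^ 4 = 1 ∧ (u ^ 2 = 1 ∨ s ^ 3 = 1)) := by
  set G := ChevOkG2.good with hG
  have hD : Listed chevG2 := by simp [Listed]
  have hq1 : 1 < q := by rw [Z.hq]; exact Nat.one_lt_pow Z.e0 hp.out.one_lt
  obtain ⟨g, hg, t, ht, w, hw, χ, hχ, htχ, hse, ho⟩ := exists_char Z hD noMinG2 cdG2 hs hso
  obtain ⟨m, hm, hfix⟩ := descend Z [g, t]
  have hfin := finite_LL Z hm
  have hcL : CharP (LL Z m) p := by
    have := (LL Z m).subtype.injective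
    exact RingHom.charP _ this p
  set Z' := ZL Z hm with hZ'
  obtain ⟨g', hg', hgg⟩ := (fixed_iff G hD cdG2 Z'.σ Z'.ι Z'.hfix (fun y _ => ⟨y, pow_one y⟩) one_ne_zero hg).mp (hfix g (by simp))
  obtain ⟨t', ht', htt⟩ := lift_H G cdG2 ((Z'.σ : K ≃+* K) : K →+* K) Z'.ι (fun x hx => (Z'.hfix x).mp hx) (fun y _ => ⟨y, pow_one y⟩) one_ne_zero ht (hfix t (by simp))
  set s1 := em chevG2 (jL Z m) s with hs1'
  set u1 := em chevG2 (jL Z m) u with hu1'
  have hem : ∀ x : GL chevG2.Idx F, em chevG2 Z'.ι (em chevG2 (jL Z m) x) = em chevG2 Z.ι x := fun x => em_comp G (jL Z m) Z'.ι x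
  have hst : s1 = g' * t' * g'⁻¹ := by
    apply em_injective (D := chevG2) Z'.ι
    rw [map_mul, map_mul, map_inv, hgg, htt, hs1', hem, hse]
  have hu1G : u1 ∈ chevG2.group (LL Z m) := em_group G _ hu
  set v := g'⁻¹ * u1 * g' with hv
  have hvG : v ∈ chevG2.group (LL Z m) := mul_mem (mul_mem (inv_mem hg') hu1G) hg'
  have hcomm : s1 * u1 = u1 * s1 := by rw [hs1', hu1', ← map_mul, ← map_mul, hsu]
  have hvc : v ∈ cen chevG2 t' := by
    rw [mem_cen]
    refine ⟨hvG, ?_⟩
    rw [hst] at hcomm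
    calc t' * v = g'⁻¹ * (g' * t' * g'⁻¹ * u1) * g' := by rw [hv]; group
      _ = g'⁻¹ * (u1 * (g' * t' * g'⁻¹)) * g' := by rw [hcomm]
      _ = v * t' := by rw [hv]; group
  have hvpow : ∀ n : ℕ, v ^ n = 1 ↔ u ^ n = 1 := by
    intro n
    have h1 : v ^ n = g'⁻¹ * u1 ^ n * g' := by
      have := conj_pow (a := g'⁻¹) (b := u1) (i := n)
      rwa [inv_inv] at this
    rw [h1]
    constructor
    · intro h
      have h2 : u1 ^ n = 1 := by
        calc u1 ^ n = g' * (g'⁻¹ * u1 ^ n * g') * g'⁻¹ := by group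
          _ = 1 := by rw [h]; group
      apply em_injective (D := chevG2) (jL Z m)
      rw [map_pow, map_one]
      exact h2
    · intro h
      have h2 : u1 ^ n = 1 := by rw [hu1', ← map_pow, h, map_one]
      rw [h2]; group
  obtain ⟨c, hc, hcv⟩ := sylow_cen p ht' hvc (k := k) ((hvpow _).mpr huk)
  set y := c * v * c⁻¹ with hy
  have hyc : y ∈ cen chevG2 t' := mul_mem (mul_mem hc hvc) (inv_mem hc)
  have hty : t' * y * t'⁻¹ = y := by
    rw [(mem_cen.mp hyc).2]; group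
  have hypow : ∀ n : ℕ, y ^ n = 1 ↔ u ^ n = 1 := by
    intro n
    rw [← hvpow n, hy, conj_pow]
    constructor
    · intro h
      calc v ^ n = c⁻¹ * (c * v ^ n * c⁻¹) * c := by group
        _ = 1 := by rw [h]; group
    · intro h; rw [h]; group
  have hspow : ∀ n : ℕ, t' ^ n = 1 ↔ s ^ n = 1 := by
    intro n
    constructor
    · intro h
      apply em_injective (D := chevG2) (jL Z m)
      rw [map_pow, map_one]
      change s1 ^ n = 1
      rw [hst, conj_pow, h]; group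
    · intro h
      have h2 : s1 ^ n = 1 := by rw [hs1', ← map_pow, h, map_one]
      rw [hst, conj_pow] at h2
      calc t' ^ n = g'⁻¹ * (g' * t' ^ n * g'⁻¹) * g' := by group
        _ = 1 := by rw [h2]; group
  have ht1 : t' ≠ 1 := by
    intro h
    apply hs1
    have := (hspow 1).mp (by rw [h, one_pow])
    rwa [pow_one] at this
  obtain ⟨e1, e2⟩ := cent_exp p ht' ht1 hcv hty
  refine ⟨?_, fun h => (hypow p).mp (e1 h), fun h => ?_⟩
  · -- a root in the kernel
    obtain ⟨d, hd, hdr⟩ := U_form G hD ht' hcv hty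
    have hex : ∃ r : Fin chevG2.nroots, d r ≠ 0 := by
      by_contra hcon
      push Not at hcon
      have h1 : y = 1 := by
        rw [hd]
        have h2 : pr chevG2 (LL Z m) (chevG2.nroots / 2) d = pr chevG2 (LL Z m) (chevG2.nroots / 2) (fun _ => 0) :=
          pr_congr G fun r _ hr => hcon ⟨r, hr⟩
        rw [h2]
        unfold ChevClosed.pr wg
        apply List.prod_eq_one
        intro x hx
        rw [List.map_map] at hx
        obtain ⟨r, -, rfl⟩ := List.mem_map.mp hx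
        exact xg_zero G r
      apply hu1
      have := (hypow 1).mp (by rw [h1, one_pow])
      rwa [pow_one] at this
    obtain ⟨r, hr⟩ := hex
    have hrt := hdr r hr
    have hχr : χ r = 1 := by
      apply Units.ext
      rw [← htχ, ← htt, Units.val_one]
      have : rval (em chevG2 Z'.ι t') r = Z'.ι (rval t' r) := rfl
      rw [this, hrt, map_one]
    rw [ho]
    rw [ho] at hso
    apply order_fix hχ.1 hw hq1.le hχ.2 hχr
    · intro h2
      rw [h2] at hso
      have hp2 : p ≠ 2 := by rintro rfl; norm_num at hso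
      have hodd : q % 2 = 1 := by
        rw [Z.hq]
        have h3 : p % 2 = 1 := (Nat.Prime.eq_two_or_odd hp.out).resolve_left hp2
        rw [Nat.pow_mod, h3, one_pow]
        norm_num
      omega
    · intro h3
      rw [h3] at hso
      have hq3 : ¬ 3 ∣ q := by
        rw [Z.hq]
        intro h4
        have h5 := Nat.prime_three.dvd_of_dvd_pow h4
        have h6 := Nat.dvd_gcd (dvd_refl 3) h5
        rw [hso] at h6
        norm_num at h6
      omega
  · obtain ⟨e3, e4⟩ := e2 h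
    refine ⟨(hypow 4).mp e3, ?_⟩
    rcases e4 with e4 | e4
    · exact Or.inl ((hypow 2).mp e4)
    · right
      apply (hspow 3).mp
      apply ext_rval G (pow_mem ht' 3) (one_mem _)
      intro r
      rw [rval_pow G ht', e4, rval_one G]

end

end Cfsg.Agent.Lib.ChevPG
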