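import Cfsg.Agent.Lib.ClSLn
import Cfsg.Agent.Lib.SuzukiStr4
import Cfsg.Agent.Lib.SuzukiLie
import Cfsg.Agent.S2904

/-!
# Primes of the orders of Suzuki groups (helper48)
-/

set_option autoImplicit false
set_option linter.all false

namespace Cfsg.Agent.Lib.CitSuz

open Subgroup

theorem three_dvd_psl2 {F : Type*} [Field F] [Fintype F] :
    3 ∣ Nat.card (Matrix.ProjectiveSpecialLinearGroup (Fin 2) F) := by
  have hq : 2 ≤ Fintype.card F := by have := Fintype.one_lt_card (α := F); omega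
  have h := ClSLn.card_PSL_formula (F := F) rfl 2 (by norm_num)
  obtain ⟨k, hk⟩ : ∃ k, Fintype.card F = k + 2 := ⟨Fintype.card F - 2, by omega⟩
  rw [hk] at h
  simp only [Finset.prod_range_succ, Finset.prod_range_zero, one_mul] at h
  have e1 : k + 2 - 1 = k + 1 := by omega
  have e2 : (k + 2) ^ (0 + 1) - 1 = k + 1 := by simp
  have e3 : (k + 2) ^ (1 + 1) - 1 = (k + 1) * (k + 3) := by
    have : (k + 2) ^ (1 + 1) = (k + 1) * (k + 3) + 1 := by ring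
    omega
  rw [e1, e2, e3] at h
  have h2 : Nat.gcd 2 (k + 1) * Nat.card (Matrix.ProjectiveSpecialLinearGroup (Fin 2) F) =
      (k + 2) * ((k + 1) * (k + 3)) := by
    apply Nat.eq_of_mul_eq_mul_left (show 0 < k + 1 by omega)
    calc (k + 1) * (Nat.gcd 2 (k + 1) * Nat.card (Matrix.ProjectiveSpecialLinearGroup (Fin 2) F))
        = Nat.gcd 2 (k + 1) * ((k + 1) * Nat.card (Matrix.ProjectiveSpecialLinearGroup (Fin 2) F)) := by ring
      _ = _ := by rw [h]; norm_num; ring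
  have h3 : 3 ∣ (k + 2) * ((k + 1) * (k + 3)) := by
    have : k % 3 = 0 ∨ k % 3 = 1 ∨ k % 3 = 2 := by omega
    rcases this with h | h | h
    · exact Dvd.dvd.mul_left (Dvd.dvd.mul_left (by omega) _) _
    · exact Dvd.dvd.mul_right (by omega) _
    · exact Dvd.dvd.mul_left (Dvd.dvd.mul_right (by omega) _) _
  rw [← h2] at h3
  rcases (Nat.Prime.dvd_mul Nat.prime_three).1 h3 with h4 | h4
  · exfalso
    have h5 : 3 ∣ 2 := h4.trans (Nat.gcd_dvd_left _ _)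
    omega
  · exact h4

theorem three_dvd_psl3 {F : Type*} [Field F] [Fintype F] (hF : Fintype.card F = 4) :
    3 ∣ Nat.card (Matrix.ProjectiveSpecialLinearGroup (Fin 3) F) := by
  have h := ClSLn.card_PSL_formula (F := F) hF 3 (by norm_num)
  norm_num [Finset.prod_range_succ] at h
  omega

open Cfsg.Agent.Lib.SuzukiOvoid Cfsg.Agent.Lib.SuzukiGroup Cfsg.Agent.Lib.SuzukiFin
  Cfsg.Agent.Lib.SuzukiStab Cfsg.Agent.Lib.SuzukiSyl

/-- Suzuki groups over fields of the same size are isomorphic -/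
theorem sz_iso {E F : Type*} [Field E] [Fintype E] [Field F] [Fintype F] {m : ℕ} (hm : 1 ≤ m)
    (hE : Fintype.card E = 2 ^ (2 * m + 1)) (hF : Fintype.card F = 2 ^ (2 * m + 1)) :
    Nonempty (Cfsg.Lie.Sz E (2 ^ (m + 1)) ≃* Cfsg.Lie.Sz F (2 ^ (m + 1))) := by
  have hcE : CharP E 2 := SuzukiFin.charTwo hE
  have hcF : CharP F 2 := SuzukiFin.charTwo hF
  have hK : Nat.card (⊤ : Subfield F) = 2 ^ (2 * m + 1) := by
    rw [← hF, ← Nat.card_eq_fintype_card]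
    exact Nat.card_congr (Equiv.Set.univ F)
  obtain ⟨e⟩ := SuzukiStr4.szSub_equiv hm hF hm hE (⊤ : Subfield F) hK
  rw [SuzukiStr4.SzSub_top] at e
  have e1 : Cfsg.Sz E m ≃* Cfsg.Sz F m :=
    (e.symm.trans Subgroup.topEquiv).trans (MulEquiv.subgroupCongr (Sz_eq m).symm)
  exact ⟨((SuzukiLie.szEquiv m hm hE).symm.trans e1).trans (SuzukiLie.szEquiv m hm hF)⟩

theorem dvd_of_primes {m m₁ : ℕ}
    (h : ∀ r : ℕ, r.Prime → r ∣ (2 ^ (2 * m + 1)) ^ 2 * ((2 ^ (2 * m + 1)) ^ 2 + 1) * (2 ^ (2 * m + 1) - 1) →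
      r ∣ (2 ^ (2 * m₁ + 1)) ^ 2 * ((2 ^ (2 * m₁ + 1)) ^ 2 + 1) * (2 ^ (2 * m₁ + 1) - 1)) :
    2 * m + 1 ∣ 2 * m₁ + 1 := by
  obtain ⟨r, hr, hrd, hmin⟩ := Cfsg.Agent.S2904.result 2 (4 * (2 * m + 1)) (by norm_num) (by omega)
    (by omega) (by rintro ⟨h1, -⟩; omega)
  have hodd : r ≠ 2 := by
    rintro rfl
    have h1 : 2 ∣ 2 ^ (4 * (2 * m + 1)) := dvd_pow_self 2 (by omega)
    have h2 : 1 ≤ 2 ^ (4 * (2 * m + 1)) := Nat.one_le_two_pow
    omega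
  have key : ∀ n : ℕ, 2 ^ (4 * n) - 1 = (2 ^ (2 * n) - 1) * ((2 ^ n) ^ 2 + 1) := by
    intro n
    have h1 : 1 ≤ 2 ^ (2 * n) := Nat.one_le_two_pow
    have h2 : (2 ^ n) ^ 2 = 2 ^ (2 * n) := by rw [← pow_mul, mul_comm]
    rw [h2]
    obtain ⟨k, hk⟩ : ∃ k, 2 ^ (2 * n) = k + 1 := ⟨2 ^ (2 * n) - 1, by omega⟩
    have h3 : 2 ^ (4 * n) = (2 ^ (2 * n)) ^ 2 := by rw [← pow_mul]; ring_nf
    rw [h3, hk, Nat.add_sub_cancel]
    have : (k + 1) ^ 2 = k * (k + 1 + 1) + 1 := by ring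
    rw [this, Nat.add_sub_cancel]
  have key2 : ∀ n : ℕ, 2 ^ n - 1 ∣ 2 ^ (4 * n) - 1 := fun n =>
    Nat.pow_sub_one_dvd_pow_sub_one 2 (Dvd.intro_left 4 rfl)
  have h1 : r ∣ (2 ^ (2 * m + 1)) ^ 2 + 1 := by
    rw [key] at hrd
    rcases (Nat.Prime.dvd_mul hr).1 hrd with h2 | h2
    · exact absurd h2 (hmin _ (by omega) (by omega))
    · exact h2
  have h2 := h r hr (Dvd.dvd.mul_right (Dvd.dvd.mul_left h1 _) _)
  have h3 : r ∣ 2 ^ (4 * (2 * m₁ + 1)) - 1 := by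
    rcases (Nat.Prime.dvd_mul hr).1 h2 with h4 | h4
    · rcases (Nat.Prime.dvd_mul hr).1 h4 with h5 | h5
      · exfalso
        apply hodd
        have h6 := hr.dvd_of_dvd_pow (hr.dvd_of_dvd_pow h5)
        exact (Nat.prime_dvd_prime_iff_eq hr Nat.prime_two).1 h6
      · rw [key]; exact Dvd.dvd.mul_left h5 _
    · exact h4.trans (key2 _)
  have h4 : r ∣ 2 ^ (Nat.gcd (4 * (2 * m + 1)) (4 * (2 * m₁ + 1))) - 1 := by
    rw [← Nat.pow_sub_one_gcd_pow_sub_one]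
    exact Nat.dvd_gcd hrd h3
  have h5 : Nat.gcd (4 * (2 * m + 1)) (4 * (2 * m₁ + 1)) = 4 * (2 * m + 1) := by
    by_contra hne
    have h6 : Nat.gcd (4 * (2 * m + 1)) (4 * (2 * m₁ + 1)) ≤ 4 * (2 * m + 1) := Nat.gcd_le_left _ (by omega)
    have h7 : 0 < Nat.gcd (4 * (2 * m + 1)) (4 * (2 * m₁ + 1)) := Nat.gcd_pos_of_pos_left _ (by omega)
    exact hmin _ h7 (by omega) h4
  have h6 : 4 * (2 * m + 1) ∣ 4 * (2 * m₁ + 1) := by
    rw [← h5]; exact Nat.gcd_dvd_right _ _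
  exact Nat.dvd_of_mul_dvd_mul_left (by norm_num) h6

end Cfsg.Agent.Lib.CitSuz
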