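import Cfsg.Agent.Lib.PermChar4
import Cfsg.Agent.Lib.PermInd
import Cfsg.Agent.Lib.BrauerInd
import Cfsg.Agent.Lib.CharBasic2
import Mathlib.Analysis.Fourier.FiniteAbelian.PontryaginDuality

/-! permutation characters which split along a torus -/

namespace Cfsg.Agent.Lib.ClPermChar

open Cfsg Cfsg.Agent.Lib Cfsg.Agent.Lib.CharBasic Cfsg.Agent.Lib.IndFun

universe u v w

variable {G : Type u} [Group G] [Fintype G]

/-- a family of nonzero characters whose sum has norm the size of the family -/
theorem family_irr {ι : Type*} [Fintype ι] (ψ : ι → G → ℂ) (hchar : ∀ i, IsCharacter G (ψ i)) (hne : ∀ i, ψ i ≠ 0)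
    (hsum : classInner (∑ i, ψ i) (∑ i, ψ i) = Fintype.card ι) :
    (∀ i, IsIrrCharacter G (ψ i)) ∧ Function.Injective ψ := by
  classical
  have h1 : ∀ i j, ∃ n : ℕ, classInner (ψ i) (ψ j) = n := fun i j => (hchar i).classInner_nat (hchar j)
  choose a ha using h1
  have hpos : ∀ i, 1 ≤ a i i := by
    intro i
    by_contra h
    have h0 : a i i = 0 := by omega
    apply hne i
    rw [← classInner_self_eq_zero, ha, h0, Nat.cast_zero]
  have hS : ∑ i, ∑ j, a i j = Fintype.card ι := by
    have : ((∑ i, ∑ j, a i j : ℕ) : ℂ) = Fintype.card ι := by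
      rw [← hsum, CharBasic.classInner_sum_left, Nat.cast_sum]
      apply Finset.sum_congr rfl
      intro i _
      rw [CharBasic.classInner_sum_right, Nat.cast_sum]
      exact Finset.sum_congr rfl fun j _ => (ha i j).symm
    exact_mod_cast this
  have hrow : ∀ i, a i i ≤ ∑ j, a i j := fun i => Finset.single_le_sum (f := fun j => a i j) (fun _ _ => Nat.zero_le _) (Finset.mem_univ i)
  have hone : ∀ i ∈ Finset.univ, (1 : ℕ) = ∑ j, a i j := by
    rw [← Finset.sum_eq_sum_iff_of_le (fun i _ => (hpos i).trans (hrow i)), hS, Finset.sum_const, Finset.card_univ,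
      smul_eq_mul, mul_one]
  have haii : ∀ i, a i i = 1 := by
    intro i
    have h2 := hone i (Finset.mem_univ i)
    have h3 := hrow i
    have h4 := hpos i
    omega
  have haij : ∀ i j, i ≠ j → a i j = 0 := by
    intro i j hij
    have h2 := hone i (Finset.mem_univ i)
    have h3 : a i i + a i j ≤ ∑ j, a i j := by
      rw [← Finset.sum_pair (f := fun j => a i j) hij]
      exact Finset.sum_le_sum_of_subset (Finset.subset_univ _)
    have h4 := haii i
    omega
  refine ⟨fun i => (hchar i).isIrr_of_norm_one (by rw [ha, haii, Nat.cast_one]), ?_⟩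
  intro i j hij
  by_contra hne'
  have h2 := ha i j
  rw [haij i j hne', ← hij, ha, haii] at h2
  norm_num at h2

section Torus

variable {X : Type v} [MulAction G X] [Fintype X] {A : Type w} [CommGroup A] [Fintype A]

/-- the homomorphism attached to a character of the additive version -/
noncomputable def thom (θ : AddChar (Additive A) ℂ) : A →* ℂˣ :=
  MonoidHom.toHomUnits
    { toFun := fun a => θ (Additive.ofMul a)
      map_one' := by rw [ofMul_one, AddChar.map_zero_eq_one]
      map_mul' := fun a b => by rw [ofMul_mul, AddChar.map_add_eq_mul] }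

theorem card_add : Fintype.card (Additive A) = Fintype.card A := Fintype.card_congr Additive.toMul

theorem thom_apply (θ : AddChar (Additive A) ℂ) (a : A) : ((thom θ a : ℂˣ) : ℂ) = θ (Additive.ofMul a) := rfl

variable (P : Subgroup G) (lam : P →* A)

/-- the induced characters -/
noncomputable def pth (θ : AddChar (Additive A) ℂ) : G → ℂ := indFun P (fun g => ((thom θ (lam g) : ℂˣ) : ℂ))

theorem pth_char (θ : AddChar (Additive A) ℂ) : IsCharacter G (pth P lam θ) :=
  IsCharacter.indFun P (BrauerInd.isCharacter_hom ((thom θ).comp lam))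

theorem sum_pth [MulAction.IsPretransitive G X] (x0 : X) (hlam : Function.Surjective lam)
    (hH : ∀ g : G, g ∈ MulAction.stabilizer G x0 ↔ ∃ h : g ∈ P, lam ⟨g, h⟩ = 1) (g : G) :
    ∑ θ, pth P lam θ g = (Nat.card (MulAction.fixedBy X g) : ℂ) := by
  classical
  have h1 : (Nat.card (MulAction.fixedBy X g) : ℂ) = indFun (MulAction.stabilizer G x0) (fun _ => 1) g := by
    rw [PermInd.indFun_stabilizer_one]
    congr 1
    apply Nat.card_congr
    refine Equiv.subtypeEquivRight fun x => ?_
    rw [MulAction.orbit_eq_univ]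
    simp [MulAction.mem_fixedBy]
  rw [h1, indFun_apply]
  have hcard : Nat.card P = Fintype.card A * Nat.card (MulAction.stabilizer G x0) := by
    have h2 : Nat.card (MulAction.stabilizer G x0) = Nat.card lam.ker := by
      apply Nat.card_congr
      exact
        { toFun := fun g => ⟨⟨g.1, ((hH g.1).1 g.2).1⟩, ((hH g.1).1 g.2).2⟩
          invFun := fun g => ⟨g.1.1, (hH g.1.1).2 ⟨g.1.2, g.2⟩⟩
          left_inv := fun g => rfl
          right_inv := fun g => rfl }
    rw [h2, ← Subgroup.card_mul_index lam.ker, Subgroup.index_ker, MonoidHom.range_eq_top.2 hlam, mul_comm,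
      Subgroup.card_top, Nat.card_eq_fintype_card (α := A)]
  have hterm : ∀ y : G, ∑ θ : AddChar (Additive A) ℂ, extendByZero P (fun g => ((thom θ (lam g) : ℂˣ) : ℂ)) y =
      (Fintype.card A : ℂ) * extendByZero (MulAction.stabilizer G x0) (fun _ => (1 : ℂ)) y := by
    intro y
    by_cases hy : y ∈ P
    · have e1 : ∀ θ : AddChar (Additive A) ℂ, extendByZero P (fun g => ((thom θ (lam g) : ℂˣ) : ℂ)) y =
          θ (Additive.ofMul (lam ⟨y, hy⟩)) := by
        intro θ
        rw [extendByZero_mem P _ hy]
        rfl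
      rw [Finset.sum_congr rfl fun θ _ => e1 θ, AddChar.sum_apply_eq_ite]
      by_cases hy1 : lam ⟨y, hy⟩ = 1
      · rw [if_pos (by rw [hy1, ofMul_one]), extendByZero_mem _ _ ((hH y).2 ⟨hy, hy1⟩), mul_one, card_add]
      · rw [if_neg (by rw [ofMul_eq_zero]; exact hy1), extendByZero_not_mem _ _ (fun h => hy1 ((hH y).1 h).2), mul_zero]
    · rw [extendByZero_not_mem _ _ (fun h => hy ((hH y).1 h).1), mul_zero]
      exact Finset.sum_eq_zero fun θ _ => extendByZero_not_mem _ _ hy
  have e2 : ∑ θ, pth P lam θ g = (Nat.card P : ℂ)⁻¹ * ∑ x : G, ∑ θ : AddChar (Additive A) ℂ,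
      extendByZero P (fun g => ((thom θ (lam g) : ℂˣ) : ℂ)) (x⁻¹ * g * x) := by
    rw [Finset.sum_comm, Finset.mul_sum]
    rfl
  rw [e2, Finset.sum_congr rfl fun x _ => hterm _, ← Finset.mul_sum, hcard]
  have h3 : (Fintype.card A : ℂ) ≠ 0 := Nat.cast_ne_zero.2 Fintype.card_ne_zero
  push_cast
  field_simp

theorem main [MulAction.IsPretransitive G X] (x0 : X) (hlam : Function.Surjective lam)
    (hH : ∀ g : G, g ∈ MulAction.stabilizer G x0 ↔ ∃ h : g ∈ P, lam ⟨g, h⟩ = 1)
    (hrank : Nat.card (MulAction.orbitRel.Quotient (MulAction.stabilizer G x0) X) = Fintype.card A + 1)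
    (hP : P ≠ ⊤) : ∃ χ : Fin (Fintype.card A) → (G → ℂ), (∀ i, IsIrrCharacter G (χ i)) ∧ Function.Injective χ ∧
      ∀ g : G, (Nat.card (MulAction.fixedBy X g) : ℂ) = 1 + ∑ i, χ i g := by
  classical
  haveI : Nonempty X := ⟨x0⟩
  let ψ : AddChar (Additive A) ℂ → G → ℂ := fun θ => if θ = 0 then pth P lam θ - 1 else pth P lam θ
  have hpth1 : ∀ θ, pth P lam θ 1 = P.index := by
    intro θ
    rw [pth, indFun_one, map_one, map_one, Units.val_one, mul_one]
  have h0 : classInner (pth P lam 0) 1 = 1 := by
    have : Fintype P := Fintype.ofFinite P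
    have h := frobenius_reciprocity P (fun g => ((thom (0 : AddChar (Additive A) ℂ) (lam g) : ℂˣ) : ℂ)) (1 : G → ℂ)
      isIrrCharacter_one.isClassFunction
    rw [pth, h]
    have h2 : (fun g : P => ((thom (0 : AddChar (Additive A) ℂ) (lam g) : ℂˣ) : ℂ)) = 1 := by
      funext g
      rw [thom_apply]
      rfl
    rw [h2]
    exact isIrrCharacter_one.classInner_self
  have hchar : ∀ θ, IsCharacter G (ψ θ) := by
    intro θ
    simp only [ψ]
    split_ifs with h
    · rw [h]
      exact (pth_char P lam 0).sub_constituent isIrrCharacter_one (by rw [h0]; exact one_ne_zero)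
    · exact pth_char P lam θ
  have hne : ∀ θ, ψ θ ≠ 0 := by
    intro θ hz
    have h1 := congrFun hz 1
    simp only [ψ] at h1
    split_ifs at h1 with h
    · rw [Pi.sub_apply, hpth1, Pi.one_apply, Pi.zero_apply, sub_eq_zero] at h1
      have : P.index = 1 := by exact_mod_cast h1
      exact hP (Subgroup.index_eq_one.1 this)
    · rw [hpth1, Pi.zero_apply] at h1
      have : P.index = 0 := by exact_mod_cast h1
      exact Subgroup.FiniteIndex.index_ne_zero this
  have hsum : ∑ θ, ψ θ = (Cfsg.permRep ℂ G X).character - 1 := by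
    have h1 : ∑ θ, ψ θ = ∑ θ, (pth P lam θ - if θ = 0 then 1 else 0) := by
      apply Finset.sum_congr rfl
      intro θ _
      simp only [ψ]
      split_ifs with h
      · rfl
      · rw [sub_zero]
    rw [h1, Finset.sum_sub_distrib, Finset.sum_ite_eq' Finset.univ (0 : AddChar (Additive A) ℂ), if_pos (Finset.mem_univ _)]
    congr 1
    funext g
    rw [Finset.sum_apply, sum_pth P lam x0 hlam hH, PermChar.permRep_character]
  have hnorm : classInner (∑ θ, ψ θ) (∑ θ, ψ θ) = Fintype.card (AddChar (Additive A) ℂ) := by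
    have h1 := PermChar4.classInner_self_eq_rank (G := G) (Ω := X) x0
    have h2 := PermChar4.classInner_one (G := G) (Ω := X)
    have h3 : classInner (1 : G → ℂ) (Cfsg.permRep ℂ G X).character = 1 := by
      rw [← conj_classInner, h2, map_one]
    have h4 : classInner (1 : G → ℂ) (1 : G → ℂ) = 1 := isIrrCharacter_one.classInner_self
    rw [hsum, CharBasic.classInner_sub_left, CharBasic.classInner_sub_right, CharBasic.classInner_sub_right, h1, h2, h3, h4, hrank]
    have h5 : Fintype.card (AddChar (Additive A) ℂ) = Fintype.card A := by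
      rw [AddChar.card_eq, card_add]
    rw [h5]
    push_cast
    ring
  obtain ⟨hirr, hinj⟩ := family_irr ψ hchar hne hnorm
  have hcard : Fintype.card (Fin (Fintype.card A)) = Fintype.card (AddChar (Additive A) ℂ) := by
    rw [AddChar.card_eq, Fintype.card_fin]; exact Fintype.card_congr Additive.ofMul
  let e := Fintype.equivOfCardEq hcard
  refine ⟨fun i => ψ (e i), fun i => hirr _, hinj.comp e.injective, fun g => ?_⟩
  have h1 : ∑ i, ψ (e i) g = ∑ θ, ψ θ g := Equiv.sum_comp e (fun θ => ψ θ g)
  rw [h1, ← Finset.sum_apply, hsum, Pi.sub_apply, PermChar.permRep_character, Pi.one_apply]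
  ring

end Torus

end Cfsg.Agent.Lib.ClPermChar
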