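import Cfsg.Agent.Lib.ClUnSimple

set_option autoImplicit false

/-! Involutions of `SU_3(q)`, `q` odd. -/
namespace Cfsg.Agent.Lib.ClSU3Inv

open Cfsg.Agent.Lib.ClIso Cfsg.Agent.Lib.ClUnitary Cfsg.Agent.Lib.ClUnSimple Cfsg.Agent.Lib.UnTrans Cfsg.Agent.Lib.UnBridge
open Cfsg.Agent.Lib.ClStab Cfsg.Agent.Lib.HermMat Module Cfsg

variable {F : Type*} [Field F] [Fintype F] {q : ℕ}

local notation "V3" => (Fin 3 → F)

section Basic

theorem el_cond (hF : Fintype.card F = q ^ 2) {u : V3} (hu : hermForm 3 F q u u = 1) :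
    (-2 : F) + sig hF (-2) + (-2) * sig hF (-2) * hermForm 3 F q u u = 0 := by
  have : sig hF (-2 : F) = -2 := by rw [map_neg, map_ofNat]
  rw [this, hu]; ring

theorem ri_aux (hF : Fintype.card F = q ^ 2) {u : V3} (hu : hermForm 3 F q u u = 1) (x : V3) :
    el (herm_HS 3 hF) u (-2) (el_cond hF hu) x = x + (-2 * hermForm 3 F q x u) • u := el_apply _ _ _ _ _

/-- the involution attached to a vector of norm one. -/
noncomputable def ri (hF : Fintype.card F = q ^ 2) (u : V3) (hu : hermForm 3 F q u u = 1) : SUg 3 F q :=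
  ⟨(el (herm_HS 3 hF) u (-2) (el_cond hF hu)).trans (LinearEquiv.neg F), by
    constructor
    · intro x y
      have H := herm_HS 3 hF
      change hermForm 3 F q (-(el (herm_HS 3 hF) u (-2) (el_cond hF hu) x)) (-(el (herm_HS 3 hF) u (-2) (el_cond hF hu) y)) = _
      rw [H.neg_left, H.neg_right, neg_neg]
      exact el_mem (herm_HS 3 hF) u (-2) (el_cond hF hu) x y
    · have h1 : (((el (herm_HS 3 hF) u (-2) (el_cond hF hu)).trans (LinearEquiv.neg F) : V3 ≃ₗ[F] V3) : V3 →ₗ[F] V3) =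
          (-1 : F) • ((el (herm_HS 3 hF) u (-2) (el_cond hF hu) : V3 ≃ₗ[F] V3) : V3 →ₗ[F] V3) := by
        apply LinearMap.ext
        intro x
        change -(el (herm_HS 3 hF) u (-2) (el_cond hF hu) x) = (-1 : F) • (el (herm_HS 3 hF) u (-2) (el_cond hF hu) x)
        rw [neg_one_smul]
      rw [h1, LinearMap.det_smul, el_det, hu]
      simp
      norm_num⟩

theorem ri_apply (hF : Fintype.card F = q ^ 2) (u : V3) (hu : hermForm 3 F q u u = 1) (x : V3) :
    (ri hF u hu : V3 ≃ₗ[F] V3) x = -x + (2 * hermForm 3 F q x u) • u := by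
  change -(el (herm_HS 3 hF) u (-2) (el_cond hF hu) x) = _
  rw [ri_aux hF hu]
  module

theorem SUg_ext {g h : SUg 3 F q} (hgh : ∀ x, (g : V3 ≃ₗ[F] V3) x = (h : V3 ≃ₗ[F] V3) x) : g = h :=
  Subtype.ext (LinearEquiv.ext hgh)

theorem mul_app (g h : SUg 3 F q) (x : V3) : ((g * h : SUg 3 F q) : V3 ≃ₗ[F] V3) x = (g : V3 ≃ₗ[F] V3) ((h : V3 ≃ₗ[F] V3) x) := rfl

theorem inv_app (g : SUg 3 F q) (x : V3) : ((g⁻¹ : SUg 3 F q) : V3 ≃ₗ[F] V3) ((g : V3 ≃ₗ[F] V3) x) = x := by
  rw [← mul_app, inv_mul_cancel]; rfl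

theorem app_inv (g : SUg 3 F q) (x : V3) : (g : V3 ≃ₗ[F] V3) (((g⁻¹ : SUg 3 F q) : V3 ≃ₗ[F] V3) x) = x := by
  rw [← mul_app, mul_inv_cancel]; rfl

theorem form_app (g : SUg 3 F q) (x y : V3) : hermForm 3 F q ((g : V3 ≃ₗ[F] V3) x) ((g : V3 ≃ₗ[F] V3) y) = hermForm 3 F q x y :=
  g.2.1 x y

theorem ri_self (hF : Fintype.card F = q ^ 2) (u : V3) (hu : hermForm 3 F q u u = 1) :
    (ri hF u hu : V3 ≃ₗ[F] V3) u = u := by
  rw [ri_apply, hu]; module

theorem ri_sq (hF : Fintype.card F = q ^ 2) (u : V3) (hu : hermForm 3 F q u u = 1) : ri hF u hu * ri hF u hu = 1 := by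
  have H := herm_HS 3 hF
  apply SUg_ext
  intro x
  rw [mul_app, ri_apply, ri_apply, H.add_left, H.smul_left, H.neg_left, hu]
  change _ = x
  module

theorem ri_conj (hF : Fintype.card F = q ^ 2) (g : SUg 3 F q) (u : V3) (hu : hermForm 3 F q u u = 1)
    (hgu : hermForm 3 F q ((g : V3 ≃ₗ[F] V3) u) ((g : V3 ≃ₗ[F] V3) u) = 1) :
    g * ri hF u hu * g⁻¹ = ri hF ((g : V3 ≃ₗ[F] V3) u) hgu := by
  apply SUg_ext
  intro x
  rw [mul_app, mul_app, ri_apply, ri_apply, map_add, map_neg, map_smul, app_inv]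
  congr 2
  rw [← form_app g, app_inv]

theorem scal {n : ℕ} (hF : Fintype.card F = q ^ 2) (c : F) (x y : Fin n → F) :
    hermForm n F q (c • x) (c • y) = c ^ (q + 1) * hermForm n F q x y := by
  have H := herm_HS n hF
  rw [H.smul_left, H.smul_right, sig_apply, pow_succ']
  ring

theorem mem_line (hF : Fintype.card F = q ^ 2) (h2 : (2 : F) ≠ 0) {u v : V3} (hu : hermForm 3 F q u u = 1)
    (h : (ri hF u hu : V3 ≃ₗ[F] V3) v = v) : v = hermForm 3 F q v u • u := by
  rw [ri_apply] at h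
  have h3 : (2 : F) • v = (2 : F) • (hermForm 3 F q v u • u) := by
    rw [smul_smul]
    calc (2 : F) • v = v + v := two_smul F v
      _ = v + (-v + (2 * hermForm 3 F q v u) • u) := by rw [h]
      _ = _ := by module
  exact smul_right_injective V3 h2 h3

theorem norm_line (hF : Fintype.card F = q ^ 2) {u v : V3} (hu : hermForm 3 F q u u = 1)
    (hv : hermForm 3 F q v v = 1) {a : F} (h : v = a • u) : a ^ (q + 1) = 1 := by
  rw [h, scal hF, hu, mul_one] at hv
  exact hv

theorem ri_eq_iff (hF : Fintype.card F = q ^ 2) (h2 : (2 : F) ≠ 0) (u v : V3) (hu : hermForm 3 F q u u = 1)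
    (hv : hermForm 3 F q v v = 1) :
    ri hF u hu = ri hF v hv ↔ ∃ c : Fˣ, c ^ (q + 1) = 1 ∧ v = (c : F) • u := by
  have H := herm_HS 3 hF
  constructor
  · intro h
    have h1 := ri_self hF v hv
    rw [← h] at h1
    have h3 := mem_line hF h2 hu h1
    have h4 := norm_line hF hu hv h3
    have hne : hermForm 3 F q v u ≠ 0 := by
      intro h0
      rw [h0, zero_pow (Nat.succ_ne_zero q)] at h4
      exact zero_ne_one h4
    exact ⟨Units.mk0 _ hne, Units.ext (by rw [Units.val_pow_eq_pow_val, Units.val_mk0]; exact h4), h3⟩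
  · rintro ⟨c, hc, rfl⟩
    apply SUg_ext
    intro x
    rw [ri_apply, ri_apply, H.smul_right, smul_smul]
    congr 2
    have hc' : (c : F) ^ (q + 1) = 1 := by rw [← Units.val_pow_eq_pow_val, hc]; rfl
    rw [sig_apply]
    rw [pow_succ'] at hc'
    linear_combination (-2 * hermForm 3 F q x u) * hc'

theorem ri_ne_one (hF : Fintype.card F = q ^ 2) (h2 : (2 : F) ≠ 0) (u : V3) (hu : hermForm 3 F q u u = 1) :
    ri hF u hu ≠ 1 := by
  intro h
  have key : ∀ v : V3, v = hermForm 3 F q v u • u := fun v => mem_line hF h2 hu (by rw [h]; rfl)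
  have h1 : finrank F V3 ≤ finrank F (Submodule.span F {u}) := by
    rw [← finrank_top]
    apply Submodule.finrank_mono
    intro v _
    rw [key v]
    exact Submodule.smul_mem _ _ (Submodule.mem_span_singleton_self u)
  have hu0 : u ≠ 0 := by
    rintro rfl
    rw [(herm_HS 3 hF).zero_left] at hu
    exact zero_ne_one hu
  have h3 := finrank_span_singleton (K := F) hu0
  have h4 : finrank F V3 = 3 := by simp
  omega

/-- commuting involutions -/
theorem comm_iff (hF : Fintype.card F = q ^ 2) (h2 : (2 : F) ≠ 0) (u v : V3) (hu : hermForm 3 F q u u = 1)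
    (hv : hermForm 3 F q v v = 1) : Commute (ri hF u hu) (ri hF v hv) ↔
      hermForm 3 F q v u = 0 ∨ v = hermForm 3 F q v u • u := by
  have H := herm_HS 3 hF
  constructor
  · intro h
    -- ri v maps u to ± u
    have h1 : (ri hF u hu : V3 ≃ₗ[F] V3) ((ri hF v hv : V3 ≃ₗ[F] V3) u) = (ri hF v hv : V3 ≃ₗ[F] V3) u := by
      rw [← mul_app, h.eq, mul_app, ri_self]
    have h3 := mem_line hF h2 hu h1
    by_cases h0 : hermForm 3 F q u v = 0
    · left
      rw [H.herm, h0, map_zero]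
    · right
      rw [ri_apply] at h3
      set c := hermForm 3 F q (-u + (2 * hermForm 3 F q u v) • v) u
      have h4 : (2 * hermForm 3 F q u v) • v = (c + 1) • u := by
        rw [add_smul, one_smul, ← h3]; abel
      have h5 : v = ((2 * hermForm 3 F q u v)⁻¹ * (c + 1)) • u := by
        rw [mul_smul, ← h4, smul_smul, inv_mul_cancel₀ (mul_ne_zero h2 h0), one_smul]
      set d := (2 * hermForm 3 F q u v)⁻¹ * (c + 1)
      conv_rhs => rw [h5]
      rw [H.smul_left, hu, mul_one]
      exact h5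
  · rintro (h | h)
    · have h' : hermForm 3 F q u v = 0 := by rw [H.herm, h, map_zero]
      apply SUg_ext
      intro x
      rw [mul_app, mul_app, ri_apply, ri_apply, ri_apply, ri_apply]
      simp only [H.add_left, H.smul_left, H.neg_left, h, h']
      module
    · have h3 := norm_line hF hu hv h
      have hne : hermForm 3 F q v u ≠ 0 := by
        intro h0
        rw [h0, zero_pow (Nat.succ_ne_zero q)] at h3
        exact zero_ne_one h3
      have h4 := (ri_eq_iff hF h2 u v hu hv).2 ⟨Units.mk0 _ hne,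
        Units.ext (by rw [Units.val_pow_eq_pow_val, Units.val_mk0]; exact h3), h⟩
      rw [h4]

end Basic

section Structure

/-- every involution is of the form `ri u`. -/
theorem exists_ri (hF : Fintype.card F = q ^ 2) (h2 : (2 : F) ≠ 0) (g : SUg 3 F q) (hg : g * g = 1) (hg1 : g ≠ 1) :
    ∃ (u : V3) (hu : hermForm 3 F q u u = 1), g = ri hF u hu := by
  have H := herm_HS 3 hF
  have hgg : ∀ x, (g : V3 ≃ₗ[F] V3) ((g : V3 ≃ₗ[F] V3) x) = x := by
    intro x
    rw [← mul_app, hg]; rfl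
  have hdet := g.2.2
  -- a fixed vector
  obtain ⟨x0, hx0⟩ : ∃ x, (g : V3 ≃ₗ[F] V3) x ≠ -x := by
    by_contra hcon
    push Not at hcon
    have h1 : ((g : V3 ≃ₗ[F] V3) : V3 →ₗ[F] V3) = (-1 : F) • LinearMap.id := by
      apply LinearMap.ext
      intro x
      rw [LinearMap.smul_apply, neg_one_smul]
      exact hcon x
    rw [h1, LinearMap.det_smul, LinearMap.det_id] at hdet
    simp at hdet
    apply h2
    have h3 : (-1 : F) ^ 3 = 1 := by simpa using hdet
    linear_combination -h3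
  let u0 := x0 + (g : V3 ≃ₗ[F] V3) x0
  have hu0 : u0 ≠ 0 := by
    intro h
    apply hx0
    rw [eq_neg_iff_add_eq_zero, add_comm]
    exact h
  have hgu0 : (g : V3 ≃ₗ[F] V3) u0 = u0 := by
    change (g : V3 ≃ₗ[F] V3) (x0 + (g : V3 ≃ₗ[F] V3) x0) = _
    rw [map_add, hgg, add_comm]
  obtain ⟨w0, hw0⟩ : ∃ x, (g : V3 ≃ₗ[F] V3) x ≠ x := by
    by_contra hcon
    push Not at hcon
    exact hg1 (SUg_ext hcon)
  let w := w0 - (g : V3 ≃ₗ[F] V3) w0
  have hw : w ≠ 0 := by
    intro h
    exact hw0 (sub_eq_zero.1 h).symm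
  have hgw : (g : V3 ≃ₗ[F] V3) w = -w := by
    change (g : V3 ≃ₗ[F] V3) (w0 - (g : V3 ≃ₗ[F] V3) w0) = _
    rw [map_sub, hgg]
    change _ = -(w0 - (g : V3 ≃ₗ[F] V3) w0)
    abel
  -- the fixed space is a line
  have hline : ∀ v, (g : V3 ≃ₗ[F] V3) v = v → ∃ c : F, v = c • u0 := by
    intro v hv
    by_contra hcon
    push Not at hcon
    have hli : LinearIndependent F ![u0, v, w] := by
      rw [Fintype.linearIndependent_iff]
      intro c hc
      rw [Fin.sum_univ_three] at hc
      change c 0 • u0 + c 1 • v + c 2 • w = 0 at hc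
      have e1 := congrArg (g : V3 ≃ₗ[F] V3) hc
      rw [map_add, map_add, map_smul, map_smul, map_smul, hgu0, hv, hgw, map_zero] at e1
      have e2 : (2 * c 2) • w = 0 := by
        calc (2 * c 2) • w = (c 0 • u0 + c 1 • v + c 2 • w) - (c 0 • u0 + c 1 • v + c 2 • -w) := by module
          _ = 0 := by rw [hc, e1, sub_zero]
      have c2 : c 2 = 0 := by
        rcases smul_eq_zero.1 e2 with h | h
        · exact (mul_eq_zero.1 h).resolve_left h2
        · exact absurd h hw
      rw [c2, zero_smul, add_zero] at hc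
      have c1 : c 1 = 0 := by
        by_contra hne
        apply hcon (-((c 1)⁻¹ * c 0))
        have : c 1 • v = -(c 0 • u0) := by rw [eq_neg_iff_add_eq_zero, add_comm]; exact hc
        calc v = (c 1)⁻¹ • (c 1 • v) := by rw [smul_smul, inv_mul_cancel₀ hne, one_smul]
          _ = _ := by rw [this]; module
      rw [c1, zero_smul, add_zero] at hc
      have c0 : c 0 = 0 := (smul_eq_zero.1 hc).resolve_right hu0
      intro i
      fin_cases i
      · exact c0
      · exact c1
      · exact c2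
    let b := basisOfLinearIndependentOfCardEqFinrank hli (by simp)
    have hb0 : b 0 = u0 := by simp [b]
    have hb1 : b 1 = v := by simp [b]
    have hb2 : b 2 = w := by simp [b]
    have hM : LinearMap.toMatrix b b ((g : V3 ≃ₗ[F] V3) : V3 →ₗ[F] V3) = Matrix.diagonal ![1, 1, -1] := by
      ext i j
      rw [LinearMap.toMatrix_apply]
      fin_cases j
      · change b.repr ((g : V3 ≃ₗ[F] V3) (b 0)) i = _
        rw [hb0, hgu0, ← hb0, b.repr_self]
        fin_cases i <;> simp
      · change b.repr ((g : V3 ≃ₗ[F] V3) (b 1)) i = _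
        rw [hb1, hv, ← hb1, b.repr_self]
        fin_cases i <;> simp
      · change b.repr ((g : V3 ≃ₗ[F] V3) (b 2)) i = _
        rw [hb2, hgw, ← hb2, map_neg, b.repr_self]
        fin_cases i <;> simp
    rw [← LinearMap.det_toMatrix b, hM, Matrix.det_diagonal, Fin.prod_univ_three] at hdet
    simp at hdet
    apply h2
    linear_combination -hdet
  have hperp : ∀ x, (g : V3 ≃ₗ[F] V3) x = -x → hermForm 3 F q x u0 = 0 := by
    intro x hx
    have h1 := form_app g x u0
    rw [hx, hgu0, H.neg_left] at h1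
    have h3 : 2 * hermForm 3 F q x u0 = 0 := by linear_combination -h1
    exact (mul_eq_zero.1 h3).resolve_left h2
  have hnorm : hermForm 3 F q u0 u0 ≠ 0 := by
    intro h0
    obtain ⟨y, -, hy⟩ := herm_nd 3 hF u0 trivial hu0
    apply hy
    obtain ⟨c, hc⟩ := hline (y + (g : V3 ≃ₗ[F] V3) y) (by rw [map_add, hgg, add_comm])
    have h3 := hperp (y - (g : V3 ≃ₗ[F] V3) y) (by rw [map_sub, hgg]; abel)
    have h4 : (2 : F) • y = (y + (g : V3 ≃ₗ[F] V3) y) + (y - (g : V3 ≃ₗ[F] V3) y) := by rw [two_smul]; abel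
    have h5 : hermForm 3 F q ((2 : F) • y) u0 = 0 := by
      rw [h4, H.add_left, h3, hc, H.smul_left, h0]; ring
    rw [H.smul_left] at h5
    exact H.symm_zero ((mul_eq_zero.1 h5).resolve_left h2)
  obtain ⟨a, ha⟩ := exists_norm hF (fixed_norm hF u0)
  have ha0 : a ≠ 0 := by
    rintro rfl
    rw [zero_pow (Nat.succ_ne_zero q)] at ha
    exact hnorm ha.symm
  let u := a⁻¹ • u0
  have hu : hermForm 3 F q u u = 1 := by
    change hermForm 3 F q (a⁻¹ • u0) (a⁻¹ • u0) = 1
    rw [scal hF, ← ha, ← mul_pow, inv_mul_cancel₀ ha0, one_pow]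
  have hu0u : u0 = a • u := by
    change u0 = a • (a⁻¹ • u0)
    rw [smul_smul, mul_inv_cancel₀ ha0, one_smul]
  refine ⟨u, hu, ?_⟩
  apply SUg_ext
  intro x
  rw [ri_apply]
  obtain ⟨c, hc⟩ := hline (x + (g : V3 ≃ₗ[F] V3) x) (by rw [map_add, hgg, add_comm])
  have hxu : hermForm 3 F q ((g : V3 ≃ₗ[F] V3) x) u = hermForm 3 F q x u := by
    have hgu : (g : V3 ≃ₗ[F] V3) u = u := by
      change (g : V3 ≃ₗ[F] V3) (a⁻¹ • u0) = a⁻¹ • u0
      rw [map_smul, hgu0]
    conv_lhs => rw [← hgu]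
    exact form_app g x u
  rw [hu0u, smul_smul] at hc
  have h6 : c * a = 2 * hermForm 3 F q x u := by
    have := congrArg (fun y => hermForm 3 F q y u) hc
    simp only [H.add_left, H.smul_left, hxu, hu] at this
    linear_combination -this
  rw [← h6, ← hc]
  abel

end Structure

section Trans

/-- standard basis vectors -/
def es (i : Fin 3) : V3 := Pi.single i 1

theorem herm_es (hF : Fintype.card F = q ^ 2) (x : V3) (i : Fin 3) : hermForm 3 F q x (es i) = x i := by
  have hq := Cfsg.Agent.Lib.HermMat.two_le_q hF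
  rw [hermForm_def, Finset.sum_eq_single i]
  · simp [es]
  · intro j _ hj
    simp [es, hj]
    right
    omega
  · simp

theorem es_es (hF : Fintype.card F = q ^ 2) (i j : Fin 3) : hermForm 3 F q (es i) (es j) = if i = j then 1 else 0 := by
  rw [herm_es hF]
  unfold es
  rw [Pi.single_apply]
  by_cases h : i = j
  · subst h; simp
  · rw [if_neg h, if_neg (Ne.symm h)]

/-- any orthonormal family of at most two vectors is the image of the standard one under `SU_3`. -/
theorem trans_on (hF : Fintype.card F = q ^ 2) {k : ℕ} (hk : k ≤ 2) (w : Fin k → V3)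
    (hw : ∀ i j, hermForm 3 F q (w i) (w j) = if i = j then 1 else 0) :
    ∃ g : SUg 3 F q, ∀ i : Fin k, (g : V3 ≃ₗ[F] V3) (es (Fin.castLE (by omega) i)) = w i := by
  have H := herm_HS 3 hF
  have hlie : LinearIndependent F (fun i : Fin k => (es (Fin.castLE (by omega) i) : V3)) := by
    rw [Fintype.linearIndependent_iff]
    intro c hc i
    have h1 := congrArg (fun x : V3 => x (Fin.castLE (by omega) i)) hc
    simp only [Finset.sum_apply, Pi.smul_apply, smul_eq_mul, Pi.zero_apply] at h1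
    rw [Finset.sum_eq_single i] at h1
    · simpa [es] using h1
    · intro j _ hj
      have : Fin.castLE (show k ≤ 3 by omega) i ≠ Fin.castLE (by omega) j := fun h => hj (Fin.castLE_injective _ h).symm
      simp [es, this]
    · simp
  have hliw : LinearIndependent F w := by
    rw [Fintype.linearIndependent_iff]
    intro c hc i
    have h1 := congrArg (H.fl (w i)) hc
    rw [map_sum, map_zero] at h1
    rw [Finset.sum_eq_single i] at h1
    · rw [map_smul] at h1
      change c i * hermForm 3 F q (w i) (w i) = 0 at h1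
      rw [hw, if_pos rfl, mul_one] at h1
      exact h1
    · intro j _ hj
      rw [map_smul]
      change c j * hermForm 3 F q (w j) (w i) = 0
      rw [hw, if_neg hj, mul_zero]
    · simp
  obtain ⟨g, hg⟩ := witt_family hF _ w hlie hliw (fun i j => by
    rw [hw, es_es hF]
    by_cases h : i = j
    · subst h; simp
    · rw [if_neg h, if_neg (fun h' => h (Fin.castLE_injective _ h'))])
  -- the determinant is corrected by a quasi-reflection
  set c := LinearMap.det ((g : V3 ≃ₗ[F] V3) : V3 →ₗ[F] V3) with hc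
  have hcn : c ^ (q + 1) = 1 := det_norm hF g.2
  have hc0 : c ≠ 0 := by
    intro h0
    rw [h0, zero_pow (Nat.succ_ne_zero q)] at hcn
    exact zero_ne_one hcn
  have hcinv : (c⁻¹) * (c⁻¹) ^ q = 1 := by rw [← pow_succ', inv_pow, hcn, inv_one]
  have hcond : (c⁻¹ - 1) + sig hF (c⁻¹ - 1) + (c⁻¹ - 1) * sig hF (c⁻¹ - 1) * hermForm 3 F q (es 2 : V3) (es 2) = 0 := by
    rw [es_es hF, if_pos rfl, map_sub, map_one, sig_apply]
    linear_combination hcinv
  let r := el H (es 2 : V3) (c⁻¹ - 1) hcond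
  have hr : ∀ i : Fin k, r (es (Fin.castLE (by omega) i)) = es (Fin.castLE (by omega) i) := by
    intro i
    have hne : Fin.castLE (show k ≤ 3 by omega) i ≠ 2 := by
      intro h
      have := congrArg Fin.val h
      simp at this
      omega
    change el H (es 2 : V3) (c⁻¹ - 1) hcond _ = _
    rw [el_apply, es_es hF, if_neg hne, mul_zero, zero_smul, add_zero]
  refine ⟨⟨(g : V3 ≃ₗ[F] V3) * r, mul_mem g.2 (el_mem H _ _ hcond), ?_⟩, ?_⟩
  · change LinearMap.det (((g : V3 ≃ₗ[F] V3) : V3 →ₗ[F] V3) * (r : V3 →ₗ[F] V3)) = 1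
    rw [map_mul]
    have : LinearMap.det (r : V3 →ₗ[F] V3) = c⁻¹ := by
      change LinearMap.det ((el H (es 2 : V3) (c⁻¹ - 1) hcond : V3 ≃ₗ[F] V3) : V3 →ₗ[F] V3) = _
      rw [el_det, es_es hF, if_pos rfl]
      ring
    rw [this, ← hc, mul_inv_cancel₀ hc0]
  · intro i
    change (g : V3 ≃ₗ[F] V3) (r _) = w i
    rw [hr i, hg i]

theorem trans_one (hF : Fintype.card F = q ^ 2) (u : V3) (hu : hermForm 3 F q u u = 1) :
    ∃ g : SUg 3 F q, (g : V3 ≃ₗ[F] V3) (es 0) = u := by
  obtain ⟨g, hg⟩ := trans_on hF (k := 1) (by norm_num) (fun _ => u) (fun i j => by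
    rw [Subsingleton.elim i j, if_pos rfl]; exact hu)
  exact ⟨g, hg 0⟩

theorem trans_two (hF : Fintype.card F = q ^ 2) (u v : V3) (hu : hermForm 3 F q u u = 1)
    (hv : hermForm 3 F q v v = 1) (huv : hermForm 3 F q u v = 0) :
    ∃ g : SUg 3 F q, (g : V3 ≃ₗ[F] V3) (es 0) = u ∧ (g : V3 ≃ₗ[F] V3) (es 1) = v := by
  have H := herm_HS 3 hF
  obtain ⟨g, hg⟩ := trans_on hF (k := 2) le_rfl ![u, v] (fun i j => by
    fin_cases i <;> fin_cases j
    · simpa using hu
    · simpa using huv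
    · simpa using (by rw [H.herm, huv, map_zero] : hermForm 3 F q v u = 0)
    · simpa using hv)
  exact ⟨g, hg 0, hg 1⟩

end Trans

section Count

/-- vectors of norm one over involutions: a `(q+1)`-to-one correspondence. -/
theorem card_inv (hF : Fintype.card F = q ^ 2) (h2 : (2 : F) ≠ 0) (P : SUg 3 F q → Prop) (Q : V3 → Prop)
    (hPQ : ∀ (v : V3) (hv : hermForm 3 F q v v = 1), P (ri hF v hv) ↔ Q v) :
    (q + 1) * Nat.card {g : SUg 3 F q // g ≠ 1 ∧ g * g = 1 ∧ P g} =
      Nat.card {v : V3 // hermForm 3 F q v v = 1 ∧ Q v} := by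
  classical
  let I := {g : SUg 3 F q // g ≠ 1 ∧ g * g = 1 ∧ P g}
  have hex : ∀ g : I, ∃ (u : V3) (hu : hermForm 3 F q u u = 1), g.1 = ri hF u hu :=
    fun g => exists_ri hF h2 g.1 g.2.2.1 g.2.1
  choose rep hrep1 hrep2 using hex
  have hscal : ∀ (g : I) (c : {c : Fˣ // c ^ (q + 1) = 1}), hermForm 3 F q ((c.1 : F) • rep g) ((c.1 : F) • rep g) = 1 := by
    intro g c
    rw [scal hF, hrep1, mul_one, ← Units.val_pow_eq_pow_val, c.2]
    rfl
  have hri : ∀ (g : I) (c : {c : Fˣ // c ^ (q + 1) = 1}), ri hF _ (hscal g c) = g.1 := by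
    intro g c
    rw [hrep2 g]
    exact ((ri_eq_iff hF h2 _ _ (hrep1 g) (hscal g c)).2 ⟨c.1, c.2, rfl⟩).symm
  let f : {c : Fˣ // c ^ (q + 1) = 1} × I → {v : V3 // hermForm 3 F q v v = 1 ∧ Q v} :=
    fun p => ⟨(p.1.1 : F) • rep p.2, hscal p.2 p.1, by
      rw [← hPQ _ (hscal p.2 p.1), hri]
      exact p.2.2.2.2⟩
  have hf : Function.Bijective f := by
    constructor
    · rintro ⟨c, g⟩ ⟨d, h⟩ hcd
      have h1 : (c.1 : F) • rep g = (d.1 : F) • rep h := congrArg Subtype.val hcd
      have h3 : g = h := by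
        apply Subtype.ext
        rw [← hri g c, ← hri h d]
        congr 1
      subst h3
      have hne : rep g ≠ 0 := by
        intro h0
        have := hrep1 g
        rw [h0, (herm_HS 3 hF).zero_left] at this
        exact zero_ne_one this
      have h4 : (c.1 : F) = d.1 := by
        have : ((c.1 : F) - d.1) • rep g = 0 := by rw [sub_smul, h1, sub_self]
        exact sub_eq_zero.1 ((smul_eq_zero.1 this).resolve_right hne)
      rw [Subtype.ext (Units.ext h4) (a1 := c) (a2 := d)]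
    · rintro ⟨v, hv, hQ⟩
      let g : I := ⟨ri hF v hv, ri_ne_one hF h2 v hv, ri_sq hF v hv, (hPQ v hv).2 hQ⟩
      obtain ⟨c, hc, hcv⟩ := (ri_eq_iff hF h2 (rep g) v (hrep1 g) hv).1 (hrep2 g).symm
      exact ⟨(⟨c, hc⟩, g), Subtype.ext hcv.symm⟩
  rw [← Nat.card_congr (Equiv.ofBijective f hf), Nat.card_prod, card_norm_one_units hF]

/-- counting vectors via the first coordinate. -/
theorem card_split (hF : Fintype.card F = q ^ 2) (R : F → (Fin 2 → F) → Prop) :
    Nat.card {v : V3 // hermForm 3 F q v v = 1 ∧ R (v 0) (Fin.tail v)} =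
      ∑ a : F, Nat.card {w : Fin 2 → F // hermForm 2 F q w w = 1 - a ^ (q + 1) ∧ R a w} := by
  have e : {v : V3 // hermForm 3 F q v v = 1 ∧ R (v 0) (Fin.tail v)} ≃
      Σ a : F, {w : Fin 2 → F // hermForm 2 F q w w = 1 - a ^ (q + 1) ∧ R a w} :=
    { toFun := fun v => ⟨v.1 0, Fin.tail v.1, by
        have h := v.2.1
        rw [← Fin.cons_self_tail v.1, herm_cons] at h
        exact eq_sub_of_add_eq' h, v.2.2⟩
      invFun := fun s => ⟨Fin.cons s.1 s.2.1, by rw [herm_cons, s.2.2.1]; ring, by simpa using s.2.2.2⟩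
      left_inv := fun v => Subtype.ext (Fin.cons_self_tail v.1)
      right_inv := fun s => rfl }
  rw [Nat.card_congr e, Nat.card_sigma]

/-- moving the base vector to `es 0`. -/
theorem card_move (hF : Fintype.card F = q ^ 2) (u : V3) (hu : hermForm 3 F q u u = 1) (R : F → Prop → Prop) :
    Nat.card {v : V3 // hermForm 3 F q v v = 1 ∧ R (hermForm 3 F q v u) (v = hermForm 3 F q v u • u)} =
      Nat.card {v : V3 // hermForm 3 F q v v = 1 ∧ R (v 0) (Fin.tail v = 0)} := by
  obtain ⟨g, hg⟩ := trans_one hF u hu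
  symm
  refine Nat.card_congr (Equiv.subtypeEquiv (g : V3 ≃ₗ[F] V3).toEquiv ?_)
  intro v
  change _ ↔ hermForm 3 F q ((g : V3 ≃ₗ[F] V3) v) ((g : V3 ≃ₗ[F] V3) v) = 1 ∧
    R (hermForm 3 F q ((g : V3 ≃ₗ[F] V3) v) u) ((g : V3 ≃ₗ[F] V3) v = hermForm 3 F q ((g : V3 ≃ₗ[F] V3) v) u • u)
  rw [form_app]
  have h1 : hermForm 3 F q ((g : V3 ≃ₗ[F] V3) v) u = v 0 := by
    rw [← hg, form_app, herm_es hF]
  have h3 : ((g : V3 ≃ₗ[F] V3) v = v 0 • u) ↔ Fin.tail v = 0 := by
    rw [← hg, ← map_smul, (g : V3 ≃ₗ[F] V3).injective.eq_iff]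
    constructor
    · intro h
      funext i
      have := congrFun h i.succ
      simpa [es, Fin.tail] using this
    · intro h
      funext i
      refine Fin.cases ?_ (fun j => ?_) i
      · simp [es]
      · have := congrFun h j
        simpa [es, Fin.tail] using this
  rw [h1, propext h3]

end Count

end Cfsg.Agent.Lib.ClSU3Inv
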