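import Cfsg.Agent.Lib.ClSU3Inv

set_option autoImplicit false

/-! The commuting graph on involutions of `SU_3(q)`, `q` odd. -/
namespace Cfsg.Agent.Lib.ClSU3Inv2

open Cfsg.Agent.Lib.ClIso Cfsg.Agent.Lib.ClUnitary Cfsg.Agent.Lib.ClUnSimple Cfsg.Agent.Lib.UnTrans Cfsg.Agent.Lib.UnBridge
open Cfsg.Agent.Lib.ClStab Cfsg.Agent.Lib.HermMat Module Cfsg Cfsg.Agent.Lib.ClSU3Inv

variable {F : Type*} [Field F] [Fintype F] {q : ℕ}

local notation "V3" => (Fin 3 → F)

/-- the number of elements of norm one -/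
theorem card_norm_one (hF : Fintype.card F = q ^ 2) [DecidableEq F] :
    (Finset.univ.filter (fun a : F => a ^ (q + 1) = 1)).card = q + 1 := by
  refine Eq.trans ?_ (card_norm_one_units hF)
  rw [Nat.card_eq_fintype_card, Fintype.card_subtype]
  symm
  apply Finset.card_bij (fun (a : Fˣ) _ => (a : F))
  · intro a ha
    rw [Finset.mem_filter] at ha ⊢
    refine ⟨Finset.mem_univ _, ?_⟩
    rw [← Units.val_pow_eq_pow_val, ha.2]
    rfl
  · intro a _ b _ h
    exact Units.ext h
  · intro a ha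
    rw [Finset.mem_filter] at ha
    have ha0 : a ≠ 0 := by
      rintro rfl
      rw [zero_pow (Nat.succ_ne_zero q)] at ha
      exact zero_ne_one ha.2
    refine ⟨Units.mk0 a ha0, ?_, rfl⟩
    rw [Finset.mem_filter]
    exact ⟨Finset.mem_univ _, Units.ext (by rw [Units.val_pow_eq_pow_val]; exact ha.2)⟩

section Common

/-- existence of a common perpendicular of norm one. -/
theorem common_iff (hF : Fintype.card F = q ^ 2) (h2 : (2 : F) ≠ 0) {u v : V3} (hu : hermForm 3 F q u u = 1)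
    (hv : hermForm 3 F q v v = 1) :
    (∃ w : V3, hermForm 3 F q w w = 1 ∧ hermForm 3 F q w u = 0 ∧ hermForm 3 F q w v = 0) ↔
      (v = hermForm 3 F q v u • u ∨ hermForm 3 F q v u ^ (q + 1) ≠ 1) := by
  have H := herm_HS 3 hF
  set a := hermForm 3 F q v u with ha
  have hauv : hermForm 3 F q u v = a ^ q := by rw [H.herm, sig_apply]
  set v' := v - a • u with hv'
  have hv'u : hermForm 3 F q v' u = 0 := by rw [hv', H.sub_left, H.smul_left, hu, ← ha]; ring
  have hv'v' : hermForm 3 F q v' v' = 1 - a ^ (q + 1) := by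
    have : hermForm 3 F q v' v' = hermForm 3 F q v' v := by
      conv_lhs => rw [hv', H.sub_right, H.smul_right]
      rw [← hv', hv'u]; ring
    rw [this, hv', H.sub_left, H.smul_left, hv, hauv, pow_succ']
  constructor
  · rintro ⟨w, hw, hwu, hwv⟩
    by_contra hcon
    push Not at hcon
    obtain ⟨h1, h3⟩ := hcon
    obtain ⟨g, hg0, hg1⟩ := trans_two hF u w hu hw (H.symm_zero hwu)
    have hwv' : hermForm 3 F q w v' = 0 := by rw [hv', H.sub_right, H.smul_right, hwv, hwu]; ring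
    set x : V3 := ((g⁻¹ : SUg 3 F q) : V3 ≃ₗ[F] V3) v' with hx
    have hgx : (g : V3 ≃ₗ[F] V3) x = v' := app_inv g v'
    have x0 : x 0 = 0 := by rw [← herm_es hF x 0, ← form_app g, hgx, hg0, hv'u]
    have x1 : x 1 = 0 := by rw [← herm_es hF x 1, ← form_app g, hgx, hg1, H.symm_zero hwv']
    have hxx : hermForm 3 F q x x = 0 := by rw [← form_app g, hgx, hv'v', h3, sub_self]
    rw [hermForm_def, Fin.sum_univ_three, x0, x1] at hxx
    have x2 : x 2 = 0 := by
      have h4 : x 2 ^ (q + 1) = 0 := by rw [pow_succ']; linear_combination hxx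
      exact (pow_eq_zero_iff (Nat.succ_ne_zero q)).1 h4
    have hx0 : x = 0 := by
      funext i
      fin_cases i
      · exact x0
      · exact x1
      · exact x2
    apply h1
    have h4 : v' = 0 := by rw [← hgx, hx0, map_zero]
    exact sub_eq_zero.1 h4
  · rintro (h | h)
    · obtain ⟨g, hg⟩ := trans_one hF u hu
      refine ⟨(g : V3 ≃ₗ[F] V3) (es 1), ?_, ?_, ?_⟩
      · rw [form_app, es_es hF, if_pos rfl]
      · rw [← hg, form_app, es_es hF, if_neg (by decide)]
      · rw [h, H.smul_right, ← hg, form_app, es_es hF, if_neg (by decide), mul_zero]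
    · have hne : hermForm 3 F q v' v' ≠ 0 := by
        rw [hv'v']
        intro h0
        exact h (sub_eq_zero.1 h0).symm
      obtain ⟨b, hb⟩ := exists_norm hF (fixed_norm hF v')
      have hb0 : b ≠ 0 := by
        rintro rfl
        rw [zero_pow (Nat.succ_ne_zero q)] at hb
        exact hne hb.symm
      obtain ⟨g, hg0, hg1⟩ := trans_two hF u (b⁻¹ • v') hu (by rw [scal hF, ← hb, ← mul_pow, inv_mul_cancel₀ hb0, one_pow])
        (by rw [H.smul_right, H.symm_zero hv'u, mul_zero])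
      refine ⟨(g : V3 ≃ₗ[F] V3) (es 2), ?_, ?_, ?_⟩
      · rw [form_app, es_es hF, if_pos rfl]
      · rw [← hg0, form_app, es_es hF, if_neg (by decide)]
      · have h3 : v = b • (b⁻¹ • v') + a • u := by
          rw [smul_smul, mul_inv_cancel₀ hb0, one_smul, hv']; abel
        rw [h3, ← hg0, ← hg1, H.add_right, H.smul_right, H.smul_right, form_app, form_app, es_es hF, es_es hF,
          if_neg (by decide), if_neg (by decide)]
        ring

end Common

section Numbers

theorem Nat_id1 (q : ℕ) : q ^ 3 + 1 = (q + 1) * (q ^ 2 - q + 1) := by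
  have h : q ≤ q ^ 2 := by nlinarith [Nat.zero_le q, sq_nonneg (q : ℤ), Nat.le_self_pow two_ne_zero q]
  zify [h]
  ring

theorem card_all (hF : Fintype.card F = q ^ 2) (h2 : (2 : F) ≠ 0) :
    Nat.card {g : SUg 3 F q // g ≠ 1 ∧ g * g = 1} = q ^ 2 * (q ^ 2 - q + 1) := by
  have h1 := card_inv hF h2 (fun _ => True) (fun _ => True) (fun _ _ => Iff.rfl)
  simp only [and_true] at h1
  have h3 : Nat.card {v : V3 // hermForm 3 F q v v = 1} = q ^ 2 * (q ^ 3 + 1) := by
    have := N_one hF 3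
    rw [if_neg (by decide)] at this
    exact this
  rw [h3, Nat_id1] at h1
  apply Nat.eq_of_mul_eq_mul_left (show 0 < q + 1 by omega)
  rw [h1]
  ring

theorem card_B (hF : Fintype.card F = q ^ 2) (u : V3) (hu : hermForm 3 F q u u = 1) :
    Nat.card {v : V3 // hermForm 3 F q v v = 1 ∧ hermForm 3 F q v u = 0} = q * (q ^ 2 - 1) := by
  classical
  have h1 := card_move hF u hu (fun a _ => a = 0)
  rw [h1, card_split hF (fun a _ => a = 0), Finset.sum_eq_single (0 : F)]
  · have : Nat.card {w : Fin 2 → F // hermForm 2 F q w w = 1 - (0 : F) ^ (q + 1) ∧ (0 : F) = 0} = N F q 2 1 := by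
      apply Nat.card_congr
      apply Equiv.subtypeEquivRight
      intro w
      rw [zero_pow (Nat.succ_ne_zero q), sub_zero]
      simp
    rw [this, N_one hF 2, if_pos (by decide)]
    simp
  · intro a _ ha
    haveI : IsEmpty {w : Fin 2 → F // hermForm 2 F q w w = 1 - a ^ (q + 1) ∧ a = 0} := ⟨fun w => ha w.2.2⟩
    exact Nat.card_of_isEmpty
  · simp

theorem card_C (hF : Fintype.card F = q ^ 2) (u : V3) (hu : hermForm 3 F q u u = 1) :
    Nat.card {v : V3 // hermForm 3 F q v v = 1 ∧ (¬ (v = hermForm 3 F q v u • u) ∧ hermForm 3 F q v u ^ (q + 1) = 1)} =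
      (q + 1) * ((q ^ 2 - 1) * (q + 1)) := by
  classical
  have h1 := card_move hF u hu (fun a L => ¬ L ∧ a ^ (q + 1) = 1)
  rw [h1, card_split hF (fun a w => ¬ (w = 0) ∧ a ^ (q + 1) = 1)]
  have h3 : ∀ a : F, Nat.card {w : Fin 2 → F // hermForm 2 F q w w = 1 - a ^ (q + 1) ∧ (¬ (w = 0) ∧ a ^ (q + 1) = 1)} =
      if a ^ (q + 1) = 1 then (q ^ 2 - 1) * (q + 1) else 0 := by
    intro a
    split_ifs with ha
    · have h4 : Nat.card {w : Fin 2 → F // hermForm 2 F q w w = 1 - a ^ (q + 1) ∧ (¬ (w = 0) ∧ a ^ (q + 1) = 1)} + 1 =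
          N F q 2 0 := by
        have e : Option {w : Fin 2 → F // hermForm 2 F q w w = 1 - a ^ (q + 1) ∧ (¬ (w = 0) ∧ a ^ (q + 1) = 1)} ≃
            {w : Fin 2 → F // hermForm 2 F q w w = 0} :=
          { toFun := fun o => o.elim ⟨0, (herm_HS 2 hF).zero_left _⟩ (fun w => ⟨w.1, by rw [w.2.1, ha, sub_self]⟩)
            invFun := fun w => if h : w.1 = 0 then none else some ⟨w.1, by rw [w.2, ha, sub_self], h, ha⟩
            left_inv := fun o => by
              rcases o with _ | w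
              · simp
              · simp [w.2.2.1]
            right_inv := fun w => by
              by_cases h : w.1 = 0
              · simp only [dif_pos h]
                exact Subtype.ext h.symm
              · simp only [dif_neg h]
                rfl }
        rw [N, ← Nat.card_congr e, Finite.card_option]
      have h5 := N_zero hF 2
      rw [if_pos (by decide)] at h5
      rw [h5] at h4
      simp only [Nat.add_one_sub_one, pow_one] at h4
      exact Nat.succ_injective h4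
    · haveI : IsEmpty {w : Fin 2 → F // hermForm 2 F q w w = 1 - a ^ (q + 1) ∧ (¬ (w = 0) ∧ a ^ (q + 1) = 1)} :=
        ⟨fun w => ha w.2.2.2⟩
      exact Nat.card_of_isEmpty
  rw [Finset.sum_congr rfl (fun a _ => h3 a), ← Finset.sum_filter, Finset.sum_const, card_norm_one hF, smul_eq_mul]

theorem card_D (hF : Fintype.card F = q ^ 2) (u : V3) (hu : hermForm 3 F q u u = 1) :
    Nat.card {v : V3 // hermForm 3 F q v v = 1 ∧ (hermForm 3 F q v u ≠ 0 ∧ hermForm 3 F q v u ^ (q + 1) ≠ 1)} =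
      (q + 1) * (q - 2) * (q * (q ^ 2 - 1)) := by
  classical
  have hq := two_le_q hF
  have h1 := card_move hF u hu (fun a L => a ≠ 0 ∧ a ^ (q + 1) ≠ 1)
  rw [h1, card_split hF (fun a w => a ≠ 0 ∧ a ^ (q + 1) ≠ 1)]
  have h3 : ∀ a : F, Nat.card {w : Fin 2 → F // hermForm 2 F q w w = 1 - a ^ (q + 1) ∧ (a ≠ 0 ∧ a ^ (q + 1) ≠ 1)} =
      if (a ≠ 0 ∧ a ^ (q + 1) ≠ 1) then q * (q ^ 2 - 1) else 0 := by
    intro a
    split_ifs with ha
    · have h4 : Nat.card {w : Fin 2 → F // hermForm 2 F q w w = 1 - a ^ (q + 1) ∧ (a ≠ 0 ∧ a ^ (q + 1) ≠ 1)} =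
          N F q 2 (1 - a ^ (q + 1)) := by
        apply Nat.card_congr
        apply Equiv.subtypeEquivRight
        intro w
        exact ⟨fun h => h.1, fun h => ⟨h, ha⟩⟩
      rw [h4, N_of_fixed hF (fun h => ha.2 (sub_eq_zero.1 h).symm), N_one hF 2, if_pos (by decide)]
      · simp
      · have h5 : (a ^ (q + 1)) ^ q = a ^ (q + 1) := by
          have : frob hF (a ^ (q + 1)) = a ^ (q + 1) := by
            rw [pow_succ', map_mul, ← frob_apply hF a, frob_frob hF, frob_apply, mul_comm]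
          exact this
        have h6 : frob hF (1 - a ^ (q + 1)) = 1 - a ^ (q + 1) := by
          rw [map_sub, map_one, frob_apply, h5]
        exact h6
    · haveI : IsEmpty {w : Fin 2 → F // hermForm 2 F q w w = 1 - a ^ (q + 1) ∧ (a ≠ 0 ∧ a ^ (q + 1) ≠ 1)} :=
        ⟨fun w => ha w.2.2⟩
      exact Nat.card_of_isEmpty
  rw [Finset.sum_congr rfl (fun a _ => h3 a), ← Finset.sum_filter, Finset.sum_const, smul_eq_mul]
  congr 1
  -- the number of such a
  have h4 : (Finset.univ.filter (fun a : F => a ≠ 0 ∧ a ^ (q + 1) ≠ 1)) =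
      (Finset.univ.erase (0 : F)) \ (Finset.univ.filter (fun a : F => a ^ (q + 1) = 1)) := by
    ext a
    simp
  have hsub : (Finset.univ.filter (fun a : F => a ^ (q + 1) = 1)) ⊆ (Finset.univ.erase (0 : F)) := by
    intro a ha
    rw [Finset.mem_filter] at ha
    rw [Finset.mem_erase]
    refine ⟨?_, Finset.mem_univ _⟩
    rintro rfl
    rw [zero_pow (Nat.succ_ne_zero q)] at ha
    exact zero_ne_one ha.2
  rw [h4, Finset.card_sdiff_of_subset hsub, card_norm_one hF, Finset.card_erase_of_mem (Finset.mem_univ _),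
    Finset.card_univ, hF]
  obtain ⟨d, rfl⟩ : ∃ d, q = d + 2 := ⟨q - 2, by omega⟩
  simp only [Nat.add_sub_cancel]
  have : (d + 2) ^ 2 = (d + 2 + 1) * d + (d + 2 + 1) + 1 := by ring
  omega

end Numbers

section Main

theorem conj_all (hF : Fintype.card F = q ^ 2) (h2 : (2 : F) ≠ 0) (t x : SUg 3 F q) (ht1 : t ≠ 1) (ht : t * t = 1)
    (hx1 : x ≠ 1) (hx : x * x = 1) : ∃ g : SUg 3 F q, g * t * g⁻¹ = x := by
  obtain ⟨u, hu, rfl⟩ := exists_ri hF h2 t ht ht1
  obtain ⟨v, hv, rfl⟩ := exists_ri hF h2 x hx hx1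
  obtain ⟨g, hg⟩ := trans_one hF u hu
  obtain ⟨h, hh⟩ := trans_one hF v hv
  have hguv : ((h * g⁻¹ : SUg 3 F q) : V3 ≃ₗ[F] V3) u = v := by rw [mul_app, ← hg, inv_app, hh]
  refine ⟨h * g⁻¹, ?_⟩
  have hc : hermForm 3 F q (((h * g⁻¹ : SUg 3 F q) : V3 ≃ₗ[F] V3) u) (((h * g⁻¹ : SUg 3 F q) : V3 ≃ₗ[F] V3) u) = 1 := by
    rw [hguv]; exact hv
  rw [ri_conj hF _ u hu hc]
  congr 1

theorem card_comm (hF : Fintype.card F = q ^ 2) (h2 : (2 : F) ≠ 0) (t : SUg 3 F q) (ht1 : t ≠ 1) (ht : t * t = 1) :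
    Nat.card {x : SUg 3 F q // x ≠ 1 ∧ x * x = 1 ∧ (x ≠ t ∧ Commute t x)} = q * (q - 1) := by
  have H := herm_HS 3 hF
  have hq := two_le_q hF
  obtain ⟨u, hu, rfl⟩ := exists_ri hF h2 t ht ht1
  have h1 := card_inv hF h2 (fun x => x ≠ ri hF u hu ∧ Commute (ri hF u hu) x) (fun v => hermForm 3 F q v u = 0)
    (by
      intro v hv
      rw [comm_iff hF h2 u v hu hv]
      constructor
      · rintro ⟨h3, h4 | h4⟩
        · exact h4
        · exfalso
          apply h3
          symm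
          have h5 := norm_line hF hu hv h4
          have hne : hermForm 3 F q v u ≠ 0 := by
            intro h0
            rw [h0, zero_pow (Nat.succ_ne_zero q)] at h5
            exact zero_ne_one h5
          exact (ri_eq_iff hF h2 u v hu hv).2 ⟨Units.mk0 _ hne,
            Units.ext (by rw [Units.val_pow_eq_pow_val, Units.val_mk0]; exact h5), h4⟩
      · intro h4
        refine ⟨?_, Or.inl h4⟩
        intro h3
        obtain ⟨c, hc, hcv⟩ := (ri_eq_iff hF h2 u v hu hv).1 h3.symm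
        rw [hcv, H.smul_left, hu, mul_one] at h4
        exact c.ne_zero h4)
  rw [card_B hF u hu] at h1
  apply Nat.eq_of_mul_eq_mul_left (show 0 < q + 1 by omega)
  rw [h1, sq_sub_one]
  ring

theorem not_line_of (hF : Fintype.card F = q ^ 2) {u v : V3} (hu : hermForm 3 F q u u = 1) (hv : hermForm 3 F q v v = 1)
    (h : hermForm 3 F q v u ^ (q + 1) ≠ 1) : ¬ (v = hermForm 3 F q v u • u) :=
  fun h' => h (norm_line hF hu hv h')

/-- common neighbours of two noncommuting involutions -/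
theorem common_comm (hF : Fintype.card F = q ^ 2) (h2 : (2 : F) ≠ 0) {u v : V3} (hu : hermForm 3 F q u u = 1)
    (hv : hermForm 3 F q v v = 1) (hnc : ¬ Commute (ri hF u hu) (ri hF v hv)) :
    (∃ y : SUg 3 F q, y ≠ 1 ∧ y * y = 1 ∧ Commute (ri hF u hu) y ∧ Commute y (ri hF v hv)) ↔
      hermForm 3 F q v u ^ (q + 1) ≠ 1 := by
  have H := herm_HS 3 hF
  rw [comm_iff hF h2 u v hu hv] at hnc
  push Not at hnc
  constructor
  · rintro ⟨y, hy1, hy, h3, h4⟩
    obtain ⟨w, hw, rfl⟩ := exists_ri hF h2 y hy hy1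
    rw [comm_iff hF h2 u w hu hw] at h3
    rw [comm_iff hF h2 w v hw hv] at h4
    rcases h3 with h3 | h3
    · rcases h4 with h4 | h4
      · rcases (common_iff hF h2 hu hv).1 ⟨w, hw, h3, H.symm_zero h4⟩ with h5 | h5
        · exact absurd h5 hnc.2
        · exact h5
      · exfalso
        apply hnc.1
        rw [h4, H.smul_left, h3, mul_zero]
    · exfalso
      rcases h4 with h4 | h4
      · apply hnc.1
        rw [h3, H.smul_right] at h4
        have h5 := norm_line hF hu hw h3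
        have hne : hermForm 3 F q w u ≠ 0 := by
          intro h0
          rw [h0, zero_pow (Nat.succ_ne_zero q)] at h5
          exact zero_ne_one h5
        exact (mul_eq_zero.1 h4).resolve_left (H.sigma_ne hne)
      · apply hnc.2
        rw [h3, smul_smul] at h4
        set c := hermForm 3 F q v (hermForm 3 F q w u • u) * hermForm 3 F q w u
        conv_rhs => rw [h4]
        rw [H.smul_left, hu, mul_one]
        exact h4
  · intro h
    obtain ⟨w, hw, h3, h4⟩ := (common_iff hF h2 hu hv).2 (Or.inr h)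
    refine ⟨ri hF w hw, ri_ne_one hF h2 w hw, ri_sq hF w hw, ?_, ?_⟩
    · rw [comm_iff hF h2 u w hu hw]; exact Or.inl h3
    · rw [comm_iff hF h2 w v hw hv]; exact Or.inl (H.symm_zero h4)

theorem card_dist_two (hF : Fintype.card F = q ^ 2) (h2 : (2 : F) ≠ 0) (t : SUg 3 F q) (ht1 : t ≠ 1) (ht : t * t = 1) :
    Nat.card {x : SUg 3 F q // x ≠ 1 ∧ x * x = 1 ∧ (¬ Commute t x ∧ ∃ y : SUg 3 F q, y ≠ 1 ∧ y * y = 1 ∧ Commute t y ∧
      Commute y x)} = q * (q - 2) * (q ^ 2 - 1) := by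
  have H := herm_HS 3 hF
  obtain ⟨u, hu, rfl⟩ := exists_ri hF h2 t ht ht1
  have h1 := card_inv hF h2 (fun x => ¬ Commute (ri hF u hu) x ∧ ∃ y : SUg 3 F q, y ≠ 1 ∧ y * y = 1 ∧
      Commute (ri hF u hu) y ∧ Commute y x)
    (fun v => hermForm 3 F q v u ≠ 0 ∧ hermForm 3 F q v u ^ (q + 1) ≠ 1)
    (by
      intro v hv
      constructor
      · rintro ⟨h3, h4⟩
        have h5 := (common_comm hF h2 hu hv h3).1 h4
        rw [comm_iff hF h2 u v hu hv] at h3
        push Not at h3
        exact ⟨h3.1, h5⟩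
      · rintro ⟨h3, h4⟩
        have h5 : ¬ Commute (ri hF u hu) (ri hF v hv) := by
          rw [comm_iff hF h2 u v hu hv]
          push Not
          exact ⟨h3, not_line_of hF hu hv h4⟩
        exact ⟨h5, (common_comm hF h2 hu hv h5).2 h4⟩)
  rw [card_D hF u hu] at h1
  apply Nat.eq_of_mul_eq_mul_left (show 0 < q + 1 by omega)
  rw [h1]
  ring

theorem card_dist_three (hF : Fintype.card F = q ^ 2) (h2 : (2 : F) ≠ 0) (t : SUg 3 F q) (ht1 : t ≠ 1) (ht : t * t = 1) :
    Nat.card {x : SUg 3 F q // x ≠ 1 ∧ x * x = 1 ∧ (¬ Commute t x ∧ ∀ y : SUg 3 F q, y ≠ 1 → y * y = 1 →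
      ¬ (Commute t y ∧ Commute y x))} = (q + 1) * (q ^ 2 - 1) := by
  have H := herm_HS 3 hF
  obtain ⟨u, hu, rfl⟩ := exists_ri hF h2 t ht ht1
  have h1 := card_inv hF h2 (fun x => ¬ Commute (ri hF u hu) x ∧ ∀ y : SUg 3 F q, y ≠ 1 → y * y = 1 →
      ¬ (Commute (ri hF u hu) y ∧ Commute y x))
    (fun v => ¬ (v = hermForm 3 F q v u • u) ∧ hermForm 3 F q v u ^ (q + 1) = 1)
    (by
      intro v hv
      constructor
      · rintro ⟨h3, h4⟩
        have h5 : ¬ (∃ y : SUg 3 F q, y ≠ 1 ∧ y * y = 1 ∧ Commute (ri hF u hu) y ∧ Commute y (ri hF v hv)) := by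
          rintro ⟨y, hy1, hy, hy3, hy4⟩
          exact h4 y hy1 hy ⟨hy3, hy4⟩
        rw [common_comm hF h2 hu hv h3, not_not] at h5
        rw [comm_iff hF h2 u v hu hv] at h3
        push Not at h3
        exact ⟨h3.2, h5⟩
      · rintro ⟨h3, h4⟩
        have h0 : hermForm 3 F q v u ≠ 0 := by
          intro h0
          rw [h0, zero_pow (Nat.succ_ne_zero q)] at h4
          exact zero_ne_one h4
        have h5 : ¬ Commute (ri hF u hu) (ri hF v hv) := by
          rw [comm_iff hF h2 u v hu hv]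
          push Not
          exact ⟨h0, h3⟩
        refine ⟨h5, ?_⟩
        intro y hy1 hy hyc
        exact (common_comm hF h2 hu hv h5).1 ⟨y, hy1, hy, hyc.1, hyc.2⟩ h4)
  rw [card_C hF u hu] at h1
  apply Nat.eq_of_mul_eq_mul_left (show 0 < q + 1 by omega)
  rw [h1]
  ring

/-- a norm-one vector of the plane with given condition -/
theorem exists_plane (hF : Fintype.card F = q ^ 2) (hq3 : 3 ≤ q) {w0 : Fin 2 → F} (hw0 : w0 ≠ 0)
    (hw00 : hermForm 2 F q w0 w0 = 0) : ∃ w1 : Fin 2 → F, hermForm 2 F q w1 w1 = 1 ∧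
      hermForm 2 F q w1 w0 ^ (q + 1) ≠ 1 := by
  classical
  have H := herm_HS 2 hF
  obtain ⟨z, hz, hwz, -⟩ := exists_partner H (herm_nd 2 hF) (z := w0) (w := 0) hw00 (H.zero_right _) (by simpa using hw0)
  have hzw : hermForm 2 F q z w0 = 1 := by rw [H.herm, hwz, map_one]
  -- choose b with b ≠ 0, N(b) ≠ 1
  obtain ⟨b, hb0, hb1⟩ : ∃ b : F, b ≠ 0 ∧ b ^ (q + 1) ≠ 1 := by
    by_contra hcon
    push Not at hcon
    have hsub : (Finset.univ.erase (0 : F)) ⊆ (Finset.univ.filter (fun a : F => a ^ (q + 1) = 1)) := by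
      intro a ha
      rw [Finset.mem_erase] at ha
      rw [Finset.mem_filter]
      exact ⟨Finset.mem_univ _, hcon a ha.1⟩
    have := Finset.card_le_card hsub
    rw [card_norm_one hF, Finset.card_erase_of_mem (Finset.mem_univ _), Finset.card_univ, hF] at this
    have h3 : 3 * q ≤ q ^ 2 := by nlinarith
    omega
  obtain ⟨x, hx⟩ := exists_trace hF (c := 1) (one_pow q)
  have hbq : b ^ q ≠ 0 := pow_ne_zero _ hb0
  have hbqq : (b ^ q) ^ q = b := frob_frob hF b
  refine ⟨(x * (b ^ q)⁻¹) • w0 + b • z, ?_, ?_⟩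
  · simp only [H.add_left, H.add_right, H.smul_left, H.smul_right, hw00, hwz, hzw, hz, sig_apply]
    rw [mul_pow, inv_pow, hbqq]
    field_simp
    linear_combination (b * b ^ q) * hx
  · rw [H.add_left, H.smul_left, H.smul_left, hw00, hzw, mul_zero, zero_add, mul_one]
    exact hb1

theorem diameter (hF : Fintype.card F = q ^ 2) (hq3 : 3 ≤ q) (h2 : (2 : F) ≠ 0) (t x : SUg 3 F q) (ht1 : t ≠ 1) (ht : t * t = 1)
    (hx1 : x ≠ 1) (hx : x * x = 1) : ∃ y z : SUg 3 F q, y ≠ 1 ∧ y * y = 1 ∧ z ≠ 1 ∧ z * z = 1 ∧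
      Commute t y ∧ Commute y z ∧ Commute z x := by
  have H := herm_HS 3 hF
  obtain ⟨u, hu, rfl⟩ := exists_ri hF h2 t ht ht1
  obtain ⟨v, hv, rfl⟩ := exists_ri hF h2 x hx hx1
  by_cases hcase : v = hermForm 3 F q v u • u ∨ hermForm 3 F q v u ^ (q + 1) ≠ 1
  · obtain ⟨w, hw, h3, h4⟩ := (common_iff hF h2 hu hv).2 hcase
    refine ⟨ri hF w hw, ri hF w hw, ri_ne_one hF h2 w hw, ri_sq hF w hw, ri_ne_one hF h2 w hw, ri_sq hF w hw,
      ?_, Commute.refl _, ?_⟩
    · rw [comm_iff hF h2 u w hu hw]; exact Or.inl h3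
    · rw [comm_iff hF h2 w v hw hv]; exact Or.inl (H.symm_zero h4)
  · push Not at hcase
    obtain ⟨hl, ha⟩ := hcase
    obtain ⟨g, hg⟩ := trans_one hF u hu
    set y : V3 := ((g⁻¹ : SUg 3 F q) : V3 ≃ₗ[F] V3) v with hy
    have hgy : (g : V3 ≃ₗ[F] V3) y = v := app_inv g v
    have hy0 : y 0 = hermForm 3 F q v u := by rw [← herm_es hF y 0, ← form_app g, hgy, hg]
    have hyy : hermForm 3 F q y y = 1 := by rw [← form_app g, hgy, hv]
    have hsplit : y 0 ^ (q + 1) + hermForm 2 F q (Fin.tail y) (Fin.tail y) = 1 := by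
      rw [← herm_cons, Fin.cons_self_tail, hyy]
    rw [hy0, ha] at hsplit
    have hw00 : hermForm 2 F q (Fin.tail y) (Fin.tail y) = 0 := by linear_combination hsplit
    have hw0 : (Fin.tail y : Fin 2 → F) ≠ 0 := by
      intro h
      apply hl
      rw [← hgy, ← hg, form_app, herm_es hF, ← map_smul]
      congr 1
      funext i
      refine Fin.cases ?_ (fun j => ?_) i
      · simp [es]
      · have := congrFun h j
        simpa [es, Fin.tail] using this
    obtain ⟨w1, hw11, hw1⟩ := exists_plane hF hq3 hw0 hw00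
    let w : V3 := (g : V3 ≃ₗ[F] V3) (Fin.cons 0 w1)
    have hcons : ∀ (y : V3), hermForm 3 F q (Fin.cons 0 w1 : V3) y = hermForm 2 F q w1 (Fin.tail y) := by
      intro y
      rw [herm_split]
      change (0 : F) * _ + _ = _
      rw [zero_mul, zero_add]
      rfl
    have hw : hermForm 3 F q w w = 1 := by
      change hermForm 3 F q ((g : V3 ≃ₗ[F] V3) (Fin.cons 0 w1)) ((g : V3 ≃ₗ[F] V3) (Fin.cons 0 w1)) = 1
      rw [form_app, hcons, Fin.tail_cons, hw11]
    have hwu : hermForm 3 F q w u = 0 := by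
      change hermForm 3 F q ((g : V3 ≃ₗ[F] V3) (Fin.cons 0 w1)) u = 0
      rw [← hg, form_app, herm_es hF]
      rfl
    have hwv : hermForm 3 F q w v ^ (q + 1) ≠ 1 := by
      change hermForm 3 F q ((g : V3 ≃ₗ[F] V3) (Fin.cons 0 w1)) v ^ (q + 1) ≠ 1
      rw [← hgy, form_app, hcons]
      exact hw1
    obtain ⟨z, hz, h5, h6⟩ := (common_iff hF h2 hv hw).2 (Or.inr hwv)
    refine ⟨ri hF w hw, ri hF z hz, ri_ne_one hF h2 w hw, ri_sq hF w hw, ri_ne_one hF h2 z hz, ri_sq hF z hz, ?_, ?_, ?_⟩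
    · rw [comm_iff hF h2 u w hu hw]; exact Or.inl hwu
    · rw [comm_iff hF h2 w z hw hz]; exact Or.inl h6
    · rw [comm_iff hF h2 z v hz hv]; exact Or.inl (H.symm_zero h5)

/-- the third involution -/
theorem card_third (hF : Fintype.card F = q ^ 2) (h2 : (2 : F) ≠ 0) (t x : SUg 3 F q) (ht1 : t ≠ 1) (ht : t * t = 1)
    (hx1 : x ≠ 1) (hx : x * x = 1) (hxt : x ≠ t) (hc : Commute t x) :
    Nat.card {y : SUg 3 F q // y ≠ 1 ∧ y * y = 1 ∧ (y ≠ t ∧ y ≠ x ∧ Commute t y ∧ Commute x y)} = 1 := by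
  have H := herm_HS 3 hF
  obtain ⟨u, hu, rfl⟩ := exists_ri hF h2 t ht ht1
  obtain ⟨v, hv, rfl⟩ := exists_ri hF h2 x hx hx1
  have hne_of_line : ∀ {u v : V3} (hu : hermForm 3 F q u u = 1) (hv : hermForm 3 F q v v = 1),
      v = hermForm 3 F q v u • u → ri hF v hv = ri hF u hu := by
    intro u v hu hv h4
    symm
    have h5 := norm_line hF hu hv h4
    have hne : hermForm 3 F q v u ≠ 0 := by
      intro h0
      rw [h0, zero_pow (Nat.succ_ne_zero q)] at h5
      exact zero_ne_one h5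
    exact (ri_eq_iff hF h2 u v hu hv).2 ⟨Units.mk0 _ hne,
      Units.ext (by rw [Units.val_pow_eq_pow_val, Units.val_mk0]; exact h5), h4⟩
  have hne_of_perp : ∀ {u v : V3} (hu : hermForm 3 F q u u = 1) (hv : hermForm 3 F q v v = 1),
      hermForm 3 F q v u = 0 → ri hF v hv ≠ ri hF u hu := by
    intro u v hu hv h4 h3
    obtain ⟨c, hc, hcv⟩ := (ri_eq_iff hF h2 u v hu hv).1 h3.symm
    rw [hcv, H.smul_left, hu, mul_one] at h4
    exact c.ne_zero h4
  have hvu : hermForm 3 F q v u = 0 := by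
    rcases (comm_iff hF h2 u v hu hv).1 hc with h | h
    · exact h
    · exact absurd (hne_of_line hu hv h) hxt
  have h1 := card_inv hF h2 (fun y => y ≠ ri hF u hu ∧ y ≠ ri hF v hv ∧ Commute (ri hF u hu) y ∧ Commute (ri hF v hv) y)
    (fun w => hermForm 3 F q w u = 0 ∧ hermForm 3 F q w v = 0)
    (by
      intro w hw
      rw [comm_iff hF h2 u w hu hw, comm_iff hF h2 v w hv hw]
      constructor
      · rintro ⟨h3, h4, h5, h6⟩
        refine ⟨?_, ?_⟩
        · rcases h5 with h5 | h5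
          · exact h5
          · exact absurd (hne_of_line hu hw h5) h3
        · rcases h6 with h6 | h6
          · exact h6
          · exact absurd (hne_of_line hv hw h6) h4
      · rintro ⟨h3, h4⟩
        exact ⟨hne_of_perp hu hw h3, hne_of_perp hv hw h4, Or.inl h3, Or.inl h4⟩)
  obtain ⟨g, hg0, hg1⟩ := trans_two hF u v hu hv (H.symm_zero hvu)
  have h3 : Nat.card {w : V3 // hermForm 3 F q w w = 1 ∧ (hermForm 3 F q w u = 0 ∧ hermForm 3 F q w v = 0)} = q + 1 := by
    rw [← card_norm_one_units hF]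
    symm
    have hes : ∀ c : F, hermForm 3 F q (c • es 2 : V3) (c • es 2) = c ^ (q + 1) := by
      intro c
      rw [scal hF, es_es hF, if_pos rfl, mul_one]
    let f : {c : Fˣ // c ^ (q + 1) = 1} → {w : V3 // hermForm 3 F q w w = 1 ∧ (hermForm 3 F q w u = 0 ∧ hermForm 3 F q w v = 0)} :=
      fun c => ⟨(g : V3 ≃ₗ[F] V3) ((c.1 : F) • es 2), by
        rw [form_app, hes, ← Units.val_pow_eq_pow_val, c.2]
        rfl, by
        rw [← hg0, form_app, H.smul_left, es_es hF, if_neg (by decide), mul_zero], by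
        rw [← hg1, form_app, H.smul_left, es_es hF, if_neg (by decide), mul_zero]⟩
    apply Nat.card_congr (Equiv.ofBijective f ?_)
    constructor
    · intro c d hcd
      have h4 : (g : V3 ≃ₗ[F] V3) ((c.1 : F) • es 2) = (g : V3 ≃ₗ[F] V3) ((d.1 : F) • es 2) := congrArg Subtype.val hcd
      have h5 := (g : V3 ≃ₗ[F] V3).injective h4
      have h6 := congrFun h5 2
      simp only [es, Pi.smul_apply, Pi.single_eq_same, smul_eq_mul, mul_one] at h6
      exact Subtype.ext (Units.ext h6)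
    · rintro ⟨w, hw, hwu, hwv⟩
      set y : V3 := ((g⁻¹ : SUg 3 F q) : V3 ≃ₗ[F] V3) w with hy
      have hgy : (g : V3 ≃ₗ[F] V3) y = w := app_inv g w
      have hy0 : y 0 = 0 := by rw [← herm_es hF y 0, ← form_app g, hgy, hg0, hwu]
      have hy1 : y 1 = 0 := by rw [← herm_es hF y 1, ← form_app g, hgy, hg1, hwv]
      have hyy : y = (y 2) • es 2 := by
        funext i
        fin_cases i
        · simp [es, hy0]
        · simp [es, hy1]
        · simp [es]
      have hn : (y 2) ^ (q + 1) = 1 := by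
        rw [← hes, ← hyy, ← form_app g, hgy, hw]
      have hne : y 2 ≠ 0 := by
        intro h0
        rw [h0, zero_pow (Nat.succ_ne_zero q)] at hn
        exact zero_ne_one hn
      refine ⟨⟨Units.mk0 _ hne, Units.ext (by rw [Units.val_pow_eq_pow_val, Units.val_mk0]; exact hn)⟩, ?_⟩
      apply Subtype.ext
      change (g : V3 ≃ₗ[F] V3) ((y 2) • es 2) = w
      rw [← hyy, hgy]
  rw [h3] at h1
  exact Nat.eq_of_mul_eq_mul_left (show 0 < q + 1 by omega) (h1.trans (mul_one _).symm)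

end Main

end Cfsg.Agent.Lib.ClSU3Inv2
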