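import Cfsg.Agent.Lib.ClSU3Inv2
import Cfsg.Agent.Lib.ClUtil
import Cfsg.Agent.Lib.ClStab

/-! transport of the statements on involutions of `SU_3(q)` -/

namespace Cfsg.Agent.Lib.ClSU3Inv3

open Cfsg Cfsg.Agent.Lib Cfsg.Agent.Lib.ClUnSimple

variable {G H : Type*} [Group G] [Group H]

theorem commute_iff (e : G ≃* H) (a b : G) : Commute (e a) (e b) ↔ Commute a b := by
  constructor
  · intro h
    apply e.injective
    rw [map_mul, map_mul]
    exact h
  · intro h
    exact h.map e

theorem ne_one_iff (e : G ≃* H) (a : G) : e a ≠ 1 ↔ a ≠ 1 := by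
  rw [Ne, Ne, map_eq_one_iff e e.injective]

theorem sq_iff (e : G ≃* H) (a : G) : e a * e a = 1 ↔ a * a = 1 := by
  rw [← map_mul, map_eq_one_iff e e.injective]

theorem ex_iff (e : G ≃* H) (P : H → Prop) (Q : G → Prop) (h : ∀ x, Q x ↔ P (e x)) :
    (∃ x, Q x) ↔ ∃ y, P y := by
  constructor
  · rintro ⟨x, hx⟩
    exact ⟨e x, (h x).1 hx⟩
  · rintro ⟨y, hy⟩
    refine ⟨e.symm y, (h _).2 ?_⟩
    rw [MulEquiv.apply_symm_apply]
    exact hy

theorem all_iff (e : G ≃* H) (P : H → Prop) (Q : G → Prop) (h : ∀ x, Q x ↔ P (e x)) :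
    (∀ x, Q x) ↔ ∀ y, P y := by
  constructor
  · intro hx y
    have := (h (e.symm y)).1 (hx _)
    rwa [MulEquiv.apply_symm_apply] at this
  · intro hy x
    exact (h x).2 (hy _)

theorem card_iff (e : G ≃* H) (P : H → Prop) (Q : G → Prop) (h : ∀ x, Q x ↔ P (e x)) :
    Nat.card {x : G // Q x} = Nat.card {y : H // P y} :=
  Nat.card_congr (e.toEquiv.subtypeEquiv h)

/-- number of elements of a class times order of the centralizer -/
theorem card_class_mul [Finite G] (t : G) (P : G → Prop) (ht : P t) (hP : ∀ g x, P x → P (g * x * g⁻¹))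
    (htr : ∀ x, P x → ∃ g, g * t * g⁻¹ = x) :
    Nat.card G = Nat.card {x : G // P x} * Nat.card (Subgroup.centralizer ({t} : Set G)) := by
  have : Finite (ConjAct G) := inferInstanceAs (Finite G)
  have h := ClStab.card_eq_of_transitive (G := ConjAct G) (X := G) t {x | P x} ht
    (by
      intro g x hx
      rw [ConjAct.smul_def]
      exact hP _ _ hx)
    (by
      intro x hx
      obtain ⟨g, hg⟩ := htr x hx
      refine ⟨ConjAct.toConjAct g, ?_⟩
      rw [ConjAct.smul_def]
      exact hg)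
  have h1 : Nat.card {g : ConjAct G // g • t = t} = Nat.card (Subgroup.centralizer ({t} : Set G)) := by
    apply Nat.card_congr
    refine ConjAct.ofConjAct.toEquiv.subtypeEquiv ?_
    intro g
    rw [ConjAct.smul_def, Subgroup.mem_centralizer_iff]
    change _ ↔ ∀ h ∈ ({t} : Set G), h * ConjAct.ofConjAct g = ConjAct.ofConjAct g * h
    constructor
    · intro h1 x hx
      rw [Set.mem_singleton_iff.1 hx]
      rw [mul_inv_eq_iff_eq_mul] at h1
      exact h1.symm
    · intro h1
      rw [mul_inv_eq_iff_eq_mul]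
      exact (h1 t rfl).symm
  rw [h1] at h
  exact h

end Cfsg.Agent.Lib.ClSU3Inv3
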