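import Mathlib.GroupTheory.GroupAction.Quotient
import Mathlib.Tactic.Group
import Mathlib.Algebra.Group.Conj
import Mathlib.Algebra.Group.ConjFinite
import Mathlib.GroupTheory.OrderOfElement
import Mathlib.SetTheory.Cardinal.Finite

set_option autoImplicit false

/-!
Counting commuting pairs whose first member lies in a conjugation-invariant set.

* `card_pairs`: `#{(x, g) | P x, x g = g x} = #{classes in P} * |K|`.
-/

namespace Cfsg.Agent.Lib.ClassCount

/-- The conjugation action of `K` on a conjugation-invariant subset. -/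
@[reducible] def conjAction {K : Type*} [Group K] (P : K → Prop) (hP : ∀ g x, P x → P (g * x * g⁻¹)) :
    MulAction K {x : K // P x} where
  smul g x := ⟨g * x.1 * g⁻¹, hP g x.1 x.2⟩
  one_smul x := Subtype.ext (by show 1 * x.1 * 1⁻¹ = x.1; group)
  mul_smul g h x := Subtype.ext (by
    show (g * h) * x.1 * (g * h)⁻¹ = g * (h * x.1 * h⁻¹) * g⁻¹; group)

theorem card_pairs {K : Type*} [Group K] [Finite K] (P : K → Prop)
    (hP : ∀ g x, P x → P (g * x * g⁻¹)) :
    Nat.card {p : K × K // P p.1 ∧ Commute p.1 p.2} =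
      Nat.card {C : ConjClasses K // ∀ x, ConjClasses.mk x = C → P x} * Nat.card K := by
  letI act : MulAction K {x : K // P x} := conjAction P hP
  have e1 := MulAction.sigmaFixedByEquivOrbitsProdGroup K {x : K // P x}
  have h1 : Nat.card {p : K × K // P p.1 ∧ Commute p.1 p.2} =
      Nat.card (Σ g : K, MulAction.fixedBy {x : K // P x} g) := by
    refine Nat.card_congr ⟨fun p => ⟨p.1.2, ⟨⟨p.1.1, p.2.1⟩, ?_⟩⟩, fun q => ⟨(q.2.1.1, q.1), q.2.1.2, ?_⟩,
      ?_, ?_⟩
    · apply Subtype.ext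
      show p.1.2 * p.1.1 * p.1.2⁻¹ = p.1.1
      rw [← p.2.2.eq]; group
    · have h := congrArg Subtype.val q.2.2
      have h' : q.1 * q.2.1.1 * q.1⁻¹ = q.2.1.1 := h
      show q.2.1.1 * q.1 = q.1 * q.2.1.1
      calc q.2.1.1 * q.1 = (q.1 * q.2.1.1 * q.1⁻¹) * q.1 := by rw [h']
        _ = q.1 * q.2.1.1 := by group
    · intro p; rfl
    · intro q; rfl
  rw [h1, Nat.card_congr e1, Nat.card_prod]
  congr 1
  refine Nat.card_congr (Equiv.ofBijective
    (fun q => Quotient.liftOn' q (fun x : {x : K // P x} =>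
      (⟨ConjClasses.mk x.1, ?_⟩ : {C : ConjClasses K // ∀ x, ConjClasses.mk x = C → P x})) ?_) ⟨?_, ?_⟩)
  · intro y hy
    rw [ConjClasses.mk_eq_mk_iff_isConj, isConj_comm, isConj_iff] at hy
    obtain ⟨c, hc⟩ := hy
    rw [← hc]; exact hP c _ x.2
  · intro x y hxy
    apply Subtype.ext
    show ConjClasses.mk x.1 = ConjClasses.mk y.1
    rw [ConjClasses.mk_eq_mk_iff_isConj, isConj_comm, isConj_iff]
    obtain ⟨c, hc⟩ := hxy
    exact ⟨c, congrArg Subtype.val hc⟩
  · intro q₁ q₂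
    refine Quotient.inductionOn₂' q₁ q₂ ?_
    intro x y h
    have h' : ConjClasses.mk x.1 = ConjClasses.mk y.1 := congrArg Subtype.val h
    rw [ConjClasses.mk_eq_mk_iff_isConj, isConj_comm, isConj_iff] at h'
    obtain ⟨c, hc⟩ := h'
    apply Quotient.sound'
    exact ⟨c, Subtype.ext hc⟩
  · rintro ⟨C, hC⟩
    obtain ⟨x, rfl⟩ := ConjClasses.exists_rep C
    exact ⟨Quotient.mk'' ⟨x, hC x rfl⟩, rfl⟩

end Cfsg.Agent.Lib.ClassCount
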