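import Mathlib
import Cfsg.Prelude.Def_PLocal
import Cfsg.Prelude.Def_Transfer
import Cfsg.Agent.Lib.LocBase
import Cfsg.Agent.Lib.Tate
import Cfsg.Agent.Lib.TransferPow
import Cfsg.Agent.Lib.H70Frattini

/-!
Character-theoretic transfer (Yoshida) without characters: the transfer of an element of minimal order is
the product over its fixed points (helper47).
-/

set_option autoImplicit false

namespace Cfsg.Agent.Lib.Yoshida

open Subgroup Cfsg Cfsg.Agent.Lib.LocBase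
open scoped Pointwise

variable {G : Type*} [Group G]

open Classical in
/-- the value of `φ` extended by `1` -/
noncomputable def fx {H : Subgroup G} {A : Type*} [CommGroup A] (φ : H →* A) (g : G) : A :=
  if h : g ∈ H then φ ⟨g, h⟩ else 1

section fx

variable {H : Subgroup G} {A : Type*} [CommGroup A] (φ : H →* A)

theorem fx_of_mem {g : G} (h : g ∈ H) : fx φ g = φ ⟨g, h⟩ := by
  unfold fx; rw [dif_pos h]

theorem fx_of_not_mem {g : G} (h : g ∉ H) : fx φ g = 1 := by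
  unfold fx; rw [dif_neg h]

theorem fx_mul {g k : G} (hg : g ∈ H) (hk : k ∈ H) : fx φ (g * k) = fx φ g * fx φ k := by
  rw [fx_of_mem φ hg, fx_of_mem φ hk, fx_of_mem φ (H.mul_mem hg hk), ← map_mul]
  rfl

theorem fx_inv {g : G} (hg : g ∈ H) : fx φ g⁻¹ = (fx φ g)⁻¹ := by
  rw [fx_of_mem φ hg, fx_of_mem φ (H.inv_mem hg), ← map_inv]
  rfl

theorem fx_conj {h : G} (hh : h ∈ H) (g : G) : fx φ (h⁻¹ * g * h) = fx φ g := by
  by_cases hg : g ∈ H
  · rw [fx_mul φ (H.mul_mem (H.inv_mem hh) hg) hh, fx_mul φ (H.inv_mem hh) hg, fx_inv φ hh]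
    rw [mul_comm, mul_inv_cancel_left]
  · have : h⁻¹ * g * h ∉ H := by
      intro h1
      apply hg
      have := H.mul_mem (H.mul_mem hh h1) (H.inv_mem hh)
      simpa [mul_assoc] using this
    rw [fx_of_not_mem φ hg, fx_of_not_mem φ this]

/-- the value at a coset -/
noncomputable def fq (v : G) (q : G ⧸ H) : A := fx φ (q.out⁻¹ * v * q.out)

theorem fq_mk (v g : G) : fq φ v (g : G ⧸ H) = fx φ (g⁻¹ * v * g) := by
  unfold fq
  obtain ⟨h, hh⟩ := QuotientGroup.mk_out_eq_mul H g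
  rw [hh, ← fx_conj φ h.2 (g⁻¹ * v * g)]
  congr 1
  group

theorem fq_smul (v g : G) (q : G ⧸ H) : fq φ v (g • q) = fq φ (g⁻¹ * v * g) q := by
  obtain ⟨x, rfl⟩ := QuotientGroup.mk_surjective q
  have : g • (x : G ⧸ H) = ((g * x : G) : G ⧸ H) := rfl
  rw [this, fq_mk, fq_mk]
  congr 1
  group

theorem smul_mk_eq_iff {v x : G} : v • (x : G ⧸ H) = (x : G ⧸ H) ↔ x⁻¹ * v * x ∈ H := by
  have : v • (x : G ⧸ H) = ((v * x : G) : G ⧸ H) := rfl
  rw [this, eq_comm, QuotientGroup.eq, mul_assoc]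

theorem fq_eq_one_of_ne {v : G} {q : G ⧸ H} (h : v • q ≠ q) : fq φ v q = 1 := by
  obtain ⟨x, rfl⟩ := QuotientGroup.mk_surjective q
  rw [fq_mk]
  apply fx_of_not_mem
  rwa [← smul_mk_eq_iff]

/-- transfer as a product over fixed points -/
theorem transfer_eq_prod [Finite G] [Fintype (G ⧸ H)] {v : G}
    (hv : ∀ (n : ℕ) (g : G) (h : g⁻¹ * v ^ n * g ∈ H), g⁻¹ * v * g ∉ H → φ ⟨g⁻¹ * v ^ n * g, h⟩ = 1) :
    MonoidHom.transfer φ v = ∏ q : G ⧸ H, fq φ v q := by
  classical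
  have hft := MonoidHom.transfer_eq_prod_quotient_orbitRel_zpowers_quot φ v
  rw [hft]
  symm
  calc ∏ q : G ⧸ H, fq φ v q = ∏ s, fq φ v ((Subgroup.quotientEquivSigmaZMod H v).symm s) :=
        ((Subgroup.quotientEquivSigmaZMod H v).symm.prod_comp _).symm
    _ = _ := by
        rw [Fintype.prod_sigma]
        refine Fintype.prod_congr _ _ (fun q => ?_)
        have h1 : ∀ k : ZMod (Function.minimalPeriod (v • ·) q.out),
            fq φ v ((Subgroup.quotientEquivSigmaZMod H v).symm ⟨q, k⟩) = fq φ v q.out := by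
          intro k
          rw [Subgroup.quotientEquivSigmaZMod_symm_apply, fq_smul]
          congr 1
          rw [← zpow_neg, mul_assoc, (Commute.zpow_right (Commute.refl v) _).eq, ← mul_assoc, ← zpow_add]
          simp
        rw [Finset.prod_congr rfl (fun k _ => h1 k), Finset.prod_const, Finset.card_univ, ZMod.card]
        by_cases hfix : v • q.out = q.out
        · have hper : Function.minimalPeriod (v • ·) q.out = 1 := by
            rw [Function.minimalPeriod_eq_one_iff_isFixedPt]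
            exact hfix
          have h2 : q.out.out⁻¹ * v * q.out.out ∈ H := by
            rw [← smul_mk_eq_iff, QuotientGroup.out_eq', hfix]
          unfold fq
          rw [fx_of_mem φ h2]
          simp only [hper, pow_one]
        · rw [fq_eq_one_of_ne φ hfix, one_pow]
          symm
          apply hv
          rw [← smul_mk_eq_iff, QuotientGroup.out_eq']
          exact hfix

end fx


section orbit

open Classical in
/-- orbit as a finset -/
noncomputable def orbF {X : Type*} [MulAction G X] [Fintype X] (Q : Subgroup G) (x : X) : Finset X :=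
  Finset.univ.filter (· ∈ MulAction.orbit ↥Q x)

theorem mem_orbF {X : Type*} [MulAction G X] [Fintype X] {Q : Subgroup G} {x y : X} :
    y ∈ orbF Q x ↔ y ∈ MulAction.orbit ↥Q x := by
  classical
  unfold orbF
  rw [Finset.mem_filter]
  simp only [Finset.mem_univ, true_and]

variable {H : Subgroup G} {A : Type*} [CommGroup A] (φ : H →* A)

/-- `φ` transported to the stabilizer of a point -/
def stabHom (Q : Subgroup G) (x₀ : G) : MulAction.stabilizer ↥Q (x₀ : G ⧸ H) →* A where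
  toFun r := φ ⟨x₀⁻¹ * ((r : ↥Q) : G) * x₀, smul_mk_eq_iff.mp r.2⟩
  map_one' := by
    have : (⟨x₀⁻¹ * (((1 : MulAction.stabilizer ↥Q (x₀ : G ⧸ H)) : ↥Q) : G) * x₀,
        smul_mk_eq_iff.mp (1 : MulAction.stabilizer ↥Q (x₀ : G ⧸ H)).2⟩ : H) = 1 := by
      apply Subtype.ext; simp
    rw [this, map_one]
  map_mul' := by
    intro r s
    rw [← map_mul]
    congr 1
    apply Subtype.ext
    simp [mul_assoc]

/-- the transfer of `stabHom` -/
noncomputable def nu [Finite G] (Q : Subgroup G) (x₀ : G) : ↥Q →* A := MonoidHom.transfer (stabHom φ Q x₀)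

theorem fx_stabHom (Q : Subgroup G) (x₀ : G) (v : ↥Q) : fx (stabHom φ Q x₀) v = fx φ (x₀⁻¹ * (v : G) * x₀) := by
  by_cases h : v ∈ MulAction.stabilizer ↥Q (x₀ : G ⧸ H)
  · rw [fx_of_mem _ h]
    exact (fx_of_mem φ (smul_mk_eq_iff.mp h)).symm
  · rw [fx_of_not_mem _ h, fx_of_not_mem]
    intro h1
    exact h (smul_mk_eq_iff.mpr h1)

open Classical in
theorem nu_apply [Finite G] [Fintype (G ⧸ H)] (Q : Subgroup G) (x₀ : G) {v : G} (hvQ : v ∈ Q)
    (hv : ∀ (n : ℕ) (g : G) (_ : g⁻¹ * v ^ n * g ∈ H), g⁻¹ * v * g ∉ H → fx φ (g⁻¹ * v ^ n * g) = 1) :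
    nu φ Q x₀ ⟨v, hvQ⟩ = ∏ q ∈ orbF Q (x₀ : G ⧸ H), fq φ v q := by
  have : Fintype (↥Q ⧸ MulAction.stabilizer ↥Q (x₀ : G ⧸ H)) := Fintype.ofFinite _
  unfold nu
  rw [transfer_eq_prod (stabHom φ Q x₀) (v := ⟨v, hvQ⟩)]
  · set e := MulAction.orbitEquivQuotientStabilizer ↥Q (x₀ : G ⧸ H) with he
    have h1 : ∀ y : ↥Q ⧸ MulAction.stabilizer ↥Q (x₀ : G ⧸ H),
        fq (stabHom φ Q x₀) ⟨v, hvQ⟩ y = fq φ v (e.symm y : G ⧸ H) := by
      intro y
      obtain ⟨g, rfl⟩ := QuotientGroup.mk_surjective y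
      rw [he, MulAction.orbitEquivQuotientStabilizer_symm_apply, fq_mk, fx_stabHom]
      have h2 : (g • (x₀ : G ⧸ H) : G ⧸ H) = (((g : G) * x₀ : G) : G ⧸ H) := rfl
      rw [h2, fq_mk]
      congr 1
      push_cast
      group
    rw [Finset.prod_congr rfl (fun y _ => h1 y)]
    rw [e.symm.prod_comp (fun o : MulAction.orbit ↥Q (x₀ : G ⧸ H) => fq φ v (o : G ⧸ H))]
    rw [← Finset.prod_coe_sort (orbF Q (x₀ : G ⧸ H))]
    exact Fintype.prod_equiv (Equiv.subtypeEquivRight (fun y => mem_orbF.symm)) _ _ (fun o => rfl)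
  · intro n g h1 h2
    have h3 := fx_stabHom φ Q x₀ (g⁻¹ * ⟨v, hvQ⟩ ^ n * g)
    rw [fx_of_mem _ h1] at h3
    rw [h3]
    have h4 := hv n ((g : G) * x₀) ?_ ?_
    · rw [← h4]; congr 1
      push_cast
      group
    · have := smul_mk_eq_iff.mp h1
      have e1 : ((g : G) * x₀)⁻¹ * v ^ n * ((g : G) * x₀) = x₀⁻¹ * ((g⁻¹ * ⟨v, hvQ⟩ ^ n * g : ↥Q) : G) * x₀ := by
        push_cast; group
      rw [e1]; exact this
    · intro h5
      apply h2
      have e1 : ((g : G) * x₀)⁻¹ * v * ((g : G) * x₀) = x₀⁻¹ * ((g⁻¹ * ⟨v, hvQ⟩ * g : ↥Q) : G) * x₀ := by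
        push_cast; group
      rw [e1] at h5
      exact smul_mk_eq_iff.mpr h5

open Classical in
/-- decomposition of a `Y`-orbit into `p` orbits of the normal subgroup `Q` -/
theorem prod_orbit [Finite G] {X : Type*} [MulAction G X] [Fintype X] {Y Q : Subgroup G} {p : ℕ} [hp : Fact p.Prime]
    (hQY : Q ≤ Y) (hQn : Y ≤ normalizer (Q : Set G)) (hidx : Q.relIndex Y = p) {z : G} (hz : z ∈ Y) (hzQ : z ∉ Q)
    (q₀ : X) (hst : ∀ y ∈ Y, y • q₀ = q₀ → y ∈ Q) (F : X → A) :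
    ∏ q ∈ orbF Y q₀, F q
      = ∏ i ∈ Finset.range p, ∏ q ∈ orbF Q q₀, F (z ^ i • q) := by
  -- `z ^ k ∈ Q ↔ p ∣ k`
  have hn : (Q.subgroupOf Y).Normal := normal_subgroupOf_of_le_normalizer hQn
  have hcard : Nat.card (↥Y ⧸ Q.subgroupOf Y) = p := hidx
  have hne : ((⟨z, hz⟩ : ↥Y) : ↥Y ⧸ Q.subgroupOf Y) ≠ 1 := by
    rw [Ne, QuotientGroup.eq_one_iff, mem_subgroupOf]
    exact hzQ
  have hgen := zpowers_eq_top_of_prime_card hcard hne
  have hord : orderOf ((⟨z, hz⟩ : ↥Y) : ↥Y ⧸ Q.subgroupOf Y) = p := by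
    rw [← hcard]
    exact orderOf_eq_card_of_zpowers_eq_top hgen
  have hzk : ∀ k : ℤ, z ^ k ∈ Q → (p : ℤ) ∣ k := by
    intro k hk
    rw [← hord, orderOf_dvd_iff_zpow_eq_one, ← QuotientGroup.mk_zpow, QuotientGroup.eq_one_iff, mem_subgroupOf]
    simpa using hk
  have hcov : ∀ y ∈ Y, ∃ i < p, ∃ c ∈ Q, y = z ^ i * c := by
    intro y hy
    have h1 : ((⟨y, hy⟩ : ↥Y) : ↥Y ⧸ Q.subgroupOf Y) ∈ zpowers ((⟨z, hz⟩ : ↥Y) : ↥Y ⧸ Q.subgroupOf Y) := by
      rw [hgen]; exact mem_top _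
    rw [← mem_powers_iff_mem_zpowers] at h1
    obtain ⟨i, hi, h2⟩ := (mem_powers_iff_mem_range_orderOf (x := ((⟨z, hz⟩ : ↥Y) : ↥Y ⧸ Q.subgroupOf Y))).mp h1 |>
      fun h => Finset.mem_image.mp h
    rw [Finset.mem_range, hord] at hi
    refine ⟨i, hi, z ^ (-(i : ℤ)) * y, ?_, ?_⟩
    · rw [← QuotientGroup.mk_pow, QuotientGroup.eq, mem_subgroupOf] at h2
      simpa using h2
    · rw [← mul_assoc, ← zpow_natCast, ← zpow_add]
      simp
  symm
  rw [← Finset.prod_product']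
  refine Finset.prod_nbij (fun a => z ^ a.1 • a.2) ?_ ?_ ?_ ?_
  · rintro ⟨i, q⟩ h
    rw [Finset.mem_product, mem_orbF] at h
    obtain ⟨c, rfl⟩ := h.2
    rw [mem_orbF]
    refine ⟨⟨z ^ i * c, Y.mul_mem (Y.pow_mem hz i) (hQY c.2)⟩, ?_⟩
    show (z ^ i * (c : G)) • q₀ = z ^ i • ((c : G) • q₀)
    rw [mul_smul]
  · rintro ⟨i, q⟩ h ⟨j, q'⟩ h' e
    rw [Finset.mem_coe, Finset.mem_product, mem_orbF] at h h'
    obtain ⟨c, hc⟩ := h.2
    obtain ⟨c', hc'⟩ := h'.2
    have hc2 : (c : G) • q₀ = q := hc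
    have hc2' : (c' : G) • q₀ = q' := hc'
    have hi := Finset.mem_range.mp h.1
    have hj := Finset.mem_range.mp h'.1
    simp only at hi hj e hc2 hc2'
    subst hc2 hc2'
    have h1 : ((c' : G)⁻¹ * (z ^ (-(j : ℤ)) * z ^ (i : ℤ)) * c) • q₀ = q₀ := by
      rw [mul_smul, mul_smul, mul_smul, zpow_natCast, e, ← zpow_natCast, ← mul_smul (z ^ (-(j : ℤ))), ← zpow_add,
        neg_add_cancel, zpow_zero, one_smul, ← mul_smul, inv_mul_cancel, one_smul]
    have h2 := hst _ (Y.mul_mem (Y.mul_mem (Y.inv_mem (hQY c'.2)) (Y.mul_mem (Y.zpow_mem hz _) (Y.zpow_mem hz _)))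
      (hQY c.2)) h1
    have h3 : z ^ (-(j : ℤ) + i) ∈ Q := by
      have := Q.mul_mem (Q.mul_mem c'.2 h2) (Q.inv_mem c.2)
      rw [zpow_add]
      simpa [mul_assoc] using this
    obtain ⟨m, hm⟩ := hzk _ h3
    have h4 : i = j := by
      have : m = 0 := by
        by_contra hm0
        have h5 : (p : ℤ) ≤ |(-(j : ℤ) + i)| := by
          rw [hm, abs_mul]
          have h6 : 1 ≤ |m| := Int.one_le_abs hm0
          have h7 : (|(p : ℤ)|) = p := abs_of_nonneg (by positivity)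
          rw [h7]
          nlinarith [hp.out.pos]
        have h8 : |(-(j : ℤ) + i)| < p := by
          rw [abs_lt]; constructor <;> omega
        omega
      rw [this, mul_zero] at hm
      omega
    subst h4
    have h5 : (c : G) • q₀ = (c' : G) • q₀ := smul_left_cancel _ e
    rw [h5]
  · intro q h
    rw [Finset.mem_coe, mem_orbF] at h
    obtain ⟨⟨y, hy⟩, rfl⟩ := h
    obtain ⟨i, hi, c, hc, rfl⟩ := hcov y hy
    refine ⟨(i, c • q₀), ?_, ?_⟩
    · rw [Finset.mem_coe, Finset.mem_product, mem_orbF]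
      exact ⟨Finset.mem_range.mpr hi, ⟨⟨c, hc⟩, rfl⟩⟩
    · show z ^ i • (c • q₀) = (z ^ i * c) • q₀
      rw [mul_smul]
  · rintro ⟨i, q⟩ _
    rfl

end orbit


section main

variable {A : Type*} [CommGroup A]

open Classical in
theorem exists_orbit {X : Type*} [MulAction G X] [Fintype X] (W : Subgroup G) (F : X → A) (q₁ : X)
    (hq₁ : ∀ w ∈ W, w • q₁ = q₁) (hF : F q₁ ≠ 1) (hprod : ∏ q, F q = 1) :
    ∃ q₀ : X, q₀ ≠ q₁ ∧ F q₀ ≠ 1 ∧ ∏ q ∈ orbF W q₀, F q ≠ 1 := by
  by_contra hcon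
  push Not at hcon
  let mk : X → MulAction.orbitRel.Quotient ↥W X := Quotient.mk _
  have hfib : ∀ q₀ : X, (Finset.univ.filter fun q => mk q = mk q₀) = orbF W q₀ := by
    intro q₀
    ext q
    rw [Finset.mem_filter, mem_orbF]
    simp only [Finset.mem_univ, true_and]
    show Quotient.mk (MulAction.orbitRel ↥W X) q = Quotient.mk (MulAction.orbitRel ↥W X) q₀ ↔ _
    rw [Quotient.eq]
    exact MulAction.orbitRel_apply
  have h1 := Finset.prod_fiberwise (Finset.univ : Finset X) mk F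
  rw [hprod] at h1
  have h2 : ∏ j, ∏ i ∈ Finset.univ.filter (fun q => mk q = j), F i = F q₁ := by
    rw [Finset.prod_eq_single (mk q₁)]
    · rw [hfib]
      have : orbF W q₁ = {q₁} := by
        ext q
        rw [mem_orbF, Finset.mem_singleton]
        constructor
        · rintro ⟨w, rfl⟩
          exact hq₁ w w.2
        · rintro rfl
          exact MulAction.mem_orbit_self q
      rw [this, Finset.prod_singleton]
    · intro j _ hj
      by_cases hall : ∀ q, mk q = j → F q = 1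
      · apply Finset.prod_eq_one
        intro q hq
        exact hall q (Finset.mem_filter.mp hq).2
      · push Not at hall
        obtain ⟨q₀, hq₀, hF0⟩ := hall
        rw [← hq₀, hfib]
        apply hcon q₀ _ hF0
        rintro rfl
        exact hj hq₀.symm
    · intro h; exact absurd (Finset.mem_univ _) h
  exact hF (h2.symm.trans h1)

variable [Finite G] {p : ℕ} [hp : Fact p.Prime]

/-- Yoshida's argument: the output of a non-extendable homomorphism. -/
theorem core (S : Sylow p G) {W N : Subgroup G} (hW : IsWeaklyClosed W (S : Subgroup G))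
    (hN : N = normalizer (W : Set G)) (φ : ↥N →* A)
    (hφ : ∃ u ∈ N, u ∈ commutator G ∧ IsPGroup p (zpowers u) ∧ fx φ u ≠ 1) :
    ∃ (Y Q : Subgroup G) (u : G) (ν : ↥Q →* A), Y ≤ S ∧ W ≤ Y ∧ Q ≤ Y ∧ Y ≤ normalizer (Q : Set G) ∧
      Q.relIndex Y = p ∧ W ⊔ Q = Y ∧ u ∈ Q ∧ 
      ∀ z ∈ Y, z ∉ Q → ∏ i ∈ Finset.range p, fx ν (z ^ (-(i : ℤ)) * u * z ^ (i : ℤ)) ≠ 1 := by
  classical
  have hSN : (S : Subgroup G) ≤ N := by
    intro s hs
    rw [hN]
    apply mem_normalizer_of_map_conj_eq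
    apply hW.2
    rintro _ ⟨w, hw, rfl⟩
    exact S.mul_mem (S.mul_mem hs (hW.1 hw)) (S.inv_mem hs)
  have hSyl : IsSyl p (S : Subgroup G) N := isSyl_of_sylow_le hSN
  -- choose `u` of minimal order
  obtain ⟨u₀, ⟨hu₀N, hu₀c, hu₀p, hu₀⟩, hmin⟩ := Set.exists_min_image
    {u : G | u ∈ N ∧ u ∈ commutator G ∧ IsPGroup p (zpowers u) ∧ fx φ u ≠ 1} orderOf (Set.toFinite _) hφ
  -- move it into `S`
  obtain ⟨u, huS, huc, hup, hu, humin⟩ : ∃ u ∈ (S : Subgroup G), u ∈ commutator G ∧ IsPGroup p (zpowers u) ∧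
      fx φ u ≠ 1 ∧ ∀ v : G, v ∈ N → v ∈ commutator G → IsPGroup p (zpowers v) → fx φ v ≠ 1 →
        orderOf u ≤ orderOf v := by
    obtain ⟨h, hh, hle⟩ := hSyl.exists_conj_le hu₀p (by rwa [zpowers_le])
    rw [MonoidHom.map_zpowers] at hle
    refine ⟨h * u₀ * h⁻¹, ?_, ?_, ?_, ?_, ?_⟩
    · exact hle (mem_zpowers _)
    · exact (inferInstance : (commutator G).Normal).conj_mem _ hu₀c h
    · have := hu₀p.map (MulAut.conj h).toMonoidHom
      rwa [MonoidHom.map_zpowers] at this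
    · have := fx_conj φ (N.inv_mem hh) u₀
      rw [inv_inv] at this
      rw [this]; exact hu₀
    · intro v h1 h2 h3 h4
      have := hmin v ⟨h1, h2, h3, h4⟩
      have e : orderOf (h * u₀ * h⁻¹) = orderOf u₀ := by
        have := MulEquiv.orderOf_eq (MulAut.conj h) u₀
        simpa using this
      rw [e]; exact this
  have huN : u ∈ N := hSN huS
  -- the transfer condition for all conjugates of `u`
  have hv : ∀ a : G, ∀ (n : ℕ) (g : G) (_ : g⁻¹ * (a⁻¹ * u * a) ^ n * g ∈ N), g⁻¹ * (a⁻¹ * u * a) * g ∉ N →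
      fx φ (g⁻¹ * (a⁻¹ * u * a) ^ n * g) = 1 := by
    intro a n g h1 h2
    by_contra h3
    set b := a * g with hb
    have e1 : g⁻¹ * (a⁻¹ * u * a) ^ n * g = b⁻¹ * u ^ n * b := by
      rw [hb]
      have : (a⁻¹ * u * a) ^ n = a⁻¹ * u ^ n * a := by
        have := conj_pow (i := n) (a := a⁻¹) (b := u)
        rwa [inv_inv] at this
      rw [this]; group
    have e2 : g⁻¹ * (a⁻¹ * u * a) * g = b⁻¹ * u * b := by rw [hb]; group
    rw [e1] at h1 h3
    rw [e2] at h2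
    have e3 : orderOf (b⁻¹ * u ^ n * b) = orderOf (u ^ n) := by
      have := MulEquiv.orderOf_eq (MulAut.conj b⁻¹) (u ^ n)
      simpa using this
    have h4 := humin (b⁻¹ * u ^ n * b) h1 ?_ ?_ h3
    · rw [e3] at h4
      have h5 : orderOf (u ^ n) = orderOf u := le_antisymm (Nat.le_of_dvd (orderOf_pos u) (orderOf_pow_dvd n)) h4
      have h6 : zpowers (u ^ n) = zpowers u := by
        apply Subgroup.eq_of_le_of_card_ge
        · rw [zpowers_le]; exact pow_mem (mem_zpowers u) n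
        · rw [Nat.card_zpowers, Nat.card_zpowers, h5]
      have h7 : u ∈ zpowers (u ^ n) := by rw [h6]; exact mem_zpowers u
      obtain ⟨k, hk⟩ := mem_zpowers_iff.mp h7
      apply h2
      have h8 := N.zpow_mem h1 k
      have e4 : (b⁻¹ * u ^ n * b) ^ k = b⁻¹ * u * b := by
        have := conj_zpow (i := k) (a := b⁻¹) (b := u ^ n)
        rw [inv_inv] at this
        rw [this, hk]
      rwa [e4] at h8
    · have := (inferInstance : (commutator G).Normal).conj_mem _ ((commutator G).pow_mem huc n) b⁻¹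
      rwa [inv_inv] at this
    · have h5 : IsPGroup p (zpowers (u ^ n)) := hup.to_le (by rw [zpowers_le]; exact pow_mem (mem_zpowers u) n)
      have := h5.map (MulAut.conj b⁻¹).toMonoidHom
      have e5 : (MulAut.conj b⁻¹).toMonoidHom (u ^ n) = b⁻¹ * u ^ n * b := by simp
      rw [MonoidHom.map_zpowers, e5] at this
      exact this
  have : Fintype (G ⧸ N) := Fintype.ofFinite _
  have htr : ∏ q : G ⧸ N, fq φ u q = 1 := by
    rw [← transfer_eq_prod φ (v := u)]
    · exact Abelianization.commutator_subset_ker (MonoidHom.transfer φ) huc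
    · intro n g h1 h2
      have := hv 1 n g
      simp only [inv_one, one_mul, mul_one] at this
      rw [← fx_of_mem φ h1]
      exact this h1 h2
  have hfix1 : ∀ w ∈ W, w • ((1 : G) : G ⧸ N) = ((1 : G) : G ⧸ N) := by
    intro w hw
    rw [smul_mk_eq_iff]
    simpa using hSN (hW.1 hw)
  obtain ⟨q₀, hq₀1, hq₀F, hq₀⟩ := exists_orbit W (fq φ u) ((1 : G) : G ⧸ N) hfix1
    (by rw [fq_mk]; simpa using hu) htr
  obtain ⟨x₀, rfl⟩ := QuotientGroup.mk_surjective q₀
  have hux : u • (x₀ : G ⧸ N) = (x₀ : G ⧸ N) := by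
    by_contra h
    exact hq₀F (fq_eq_one_of_ne φ h)
  -- stabilizer in `S`
  set R : Subgroup G := (S : Subgroup G) ⊓ MulAction.stabilizer G (x₀ : G ⧸ N) with hR
  have hmemR : ∀ y, y ∈ R ↔ y ∈ (S : Subgroup G) ∧ y • (x₀ : G ⧸ N) = (x₀ : G ⧸ N) := by
    intro y; rw [hR, mem_inf, MulAction.mem_stabilizer_iff]
  set Y := W ⊔ R with hY
  have hYS : Y ≤ S := sup_le hW.1 inf_le_left
  have hRY : R ≤ Y := le_sup_right
  have hWR : ¬ W ≤ R := by
    intro hle
    apply hq₀1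
    rw [QuotientGroup.eq, mul_one]
    -- `x₀⁻¹ W x₀ ≤ N`
    have h1 : W.map (MulAut.conj x₀⁻¹).toMonoidHom ≤ N := by
      rintro _ ⟨w, hw, rfl⟩
      have := smul_mk_eq_iff.mp ((hmemR w).mp (hle hw)).2
      simpa using this
    obtain ⟨n, hn, h2⟩ := hSyl.exists_conj_le (isPGroup_map_conj (S.2.to_le hW.1) x₀⁻¹) h1
    rw [← map_conj_mul] at h2
    have h3 := hW.2 _ h2
    have h4 : n * x₀⁻¹ ∈ N := by rw [hN]; exact mem_normalizer_of_map_conj_eq h3
    have := N.mul_mem (N.inv_mem hn) h4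
    rwa [inv_mul_cancel_left] at this
  have hRlt : R < Y := lt_of_le_of_ne hRY (fun h => hWR (h ▸ le_sup_left))
  -- maximal subgroup of `Y` containing `R`
  obtain ⟨Q, hQY, hQn, hQi, hRQ⟩ : ∃ Q : Subgroup G, Q ≤ Y ∧ Y ≤ normalizer (Q : Set G) ∧ Q.relIndex Y = p ∧
      R ≤ Q := by
    have h1 : R.subgroupOf Y ≠ ⊤ := by
      rw [Ne, subgroupOf_eq_top]
      exact fun h => absurd (le_antisymm hRY h) hRlt.ne
    obtain ⟨M, hM, hle⟩ := (eq_top_or_exists_le_coatom (R.subgroupOf Y)).resolve_left h1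
    have hYp : IsPGroup p Y := S.2.to_le hYS
    have hMn := H70Frattini.coatom_normal hYp hM
    have hMi := H70Frattini.coatom_index hYp hM
    have e : (M.map Y.subtype).subgroupOf Y = M := Subgroup.comap_map_eq_self_of_injective Y.subtype_injective M
    refine ⟨M.map Y.subtype, map_subtype_le M, ?_, ?_, ?_⟩
    · have : ((M.map Y.subtype).subgroupOf Y).Normal := by rw [e]; exact hMn
      exact le_normalizer_of_normal_subgroupOf (map_subtype_le M)
    · unfold Subgroup.relIndex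
      rw [e]; exact hMi
    · have := Subgroup.map_mono (f := Y.subtype) hle
      rwa [map_subgroupOf_eq_of_le hRY] at this
  have huQ : u ∈ Q := hRQ ((hmemR u).mpr ⟨huS, hux⟩)
  refine ⟨Y, Q, u, nu φ Q x₀, hYS, le_sup_left, hQY, hQn, hQi, ?_, huQ, ?_⟩
  · apply le_antisymm (sup_le le_sup_left hQY)
    exact sup_le_sup_left hRQ W
  · intro z hz hzQ
    have hst : ∀ y ∈ Y, y • (x₀ : G ⧸ N) = (x₀ : G ⧸ N) → y ∈ Q := fun y hy hyx =>
      hRQ ((hmemR y).mpr ⟨hYS hy, hyx⟩)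
    have e : orbF Y (x₀ : G ⧸ N) = orbF W (x₀ : G ⧸ N) := by
      ext q
      rw [mem_orbF, mem_orbF]
      constructor
      · rintro ⟨⟨y, hy⟩, rfl⟩
        have hRW : R ≤ normalizer (W : Set G) := by rw [← hN]; exact inf_le_left.trans hSN
        obtain ⟨w, hw, r, hr, rfl⟩ := exists_mul_of_mem_sup_of_le hRW hy
        refine ⟨⟨w, hw⟩, ?_⟩
        show w • (x₀ : G ⧸ N) = (w * r) • (x₀ : G ⧸ N)
        rw [mul_smul, ((hmemR r).mp hr).2]
      · rintro ⟨⟨w, hw⟩, rfl⟩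
        exact ⟨⟨w, (le_sup_left : W ≤ Y) hw⟩, rfl⟩
    have key := prod_orbit hQY hQn hQi hz hzQ (x₀ : G ⧸ N) hst (fq φ u)
    have key2 : ∏ i ∈ Finset.range p, fx (nu φ Q x₀) (z ^ (-(i : ℤ)) * u * z ^ (i : ℤ))
        = ∏ q ∈ orbF Y (x₀ : G ⧸ N), fq φ u q := by
      rw [key]
      refine Finset.prod_congr rfl ?_
      intro i _
      have h1 : z ^ (-(i : ℤ)) * u * z ^ (i : ℤ) ∈ Q := by
        have := conj_mem_of_le_normalizer' (hQn : Y ≤ _) (Y.pow_mem hz i) huQ
        simpa [zpow_natCast, zpow_neg] using this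
      rw [fx_of_mem _ h1, nu_apply]
      · refine Finset.prod_congr rfl ?_
        intro q _
        rw [fq_smul]
        simp [zpow_natCast, zpow_neg]
      · have := hv (z ^ (i : ℤ))
        rw [← zpow_neg] at this
        exact this
    rw [key2]
    rw [e]
    exact hq₀

end main

end Cfsg.Agent.Lib.Yoshida
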