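import Mathlib
import Cfsg.Prelude.Def_PLocal
import Cfsg.Prelude.Def_Transfer
import Cfsg.Agent.Lib.LocBase
import Cfsg.Agent.Lib.Yoshida

/-!
Transfer through cocycles: local products over orbits of 2-subgroups (helper47).
-/

set_option autoImplicit false

namespace Cfsg.Agent.Lib.CocTr

open Subgroup Cfsg Cfsg.Agent.Lib.LocBase Cfsg.Agent.Lib.Yoshida

variable {G : Type*} [Group G]

section coc

variable {X : Type*} [MulAction G X] {A : Type*} [CommGroup A]

/-- cocycles -/
def IsCoc (c : G → X → A) : Prop := ∀ g h x, c (g * h) x = c g (h • x) * c h x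

variable [Fintype X] {c : G → X → A}

/-- product over an orbit -/
noncomputable def mu (c : G → X → A) (R : Subgroup G) (x : X) (g : G) : A := ∏ y ∈ orbF R x, c g y

theorem prod_shift {R : Subgroup G} {x : X} {g : G} (hg : g ∈ R) (F : X → A) :
    ∏ y ∈ orbF R x, F (g • y) = ∏ y ∈ orbF R x, F y := by
  refine Finset.prod_nbij (fun y => g • y) ?_ ?_ ?_ ?_
  · intro y hy
    rw [mem_orbF] at hy ⊢
    obtain ⟨r, rfl⟩ := hy
    exact ⟨⟨g, hg⟩ * r, mul_smul _ _ _⟩
  · intro y _ y' _ h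
    exact smul_left_cancel g h
  · intro y hy
    rw [Finset.mem_coe, mem_orbF] at hy
    obtain ⟨r, rfl⟩ := hy
    refine ⟨((⟨g, hg⟩⁻¹ * r : ↥R)) • x, ?_, ?_⟩
    · rw [Finset.mem_coe, mem_orbF]; exact ⟨_, rfl⟩
    · show g • ((g⁻¹ * (r : G)) • x) = (r : G) • x
      rw [← mul_smul, mul_inv_cancel_left]
  · intro y _; rfl

theorem mu_mul (hc : IsCoc c) {R : Subgroup G} {x : X} (g : G) {h : G} (hh : h ∈ R) :
    mu c R x (g * h) = mu c R x g * mu c R x h := by
  unfold mu
  rw [← prod_shift hh (fun y => c g y), ← Finset.prod_mul_distrib]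
  exact Finset.prod_congr rfl fun y _ => hc g h y

theorem mu_one (hc : IsCoc c) (R : Subgroup G) (x : X) : mu c R x 1 = 1 := by
  have := mu_mul hc (R := R) (x := x) 1 R.one_mem
  rw [mul_one] at this
  exact (mul_eq_left.mp this.symm)

/-- the homomorphism `mu` -/
noncomputable def muHom (hc : IsCoc c) (R : Subgroup G) (x : X) : ↥R →* A where
  toFun g := mu c R x g
  map_one' := mu_one hc R x
  map_mul' g h := mu_mul hc _ h.2

theorem mu_commutator (hc : IsCoc c) {R : Subgroup G} {x : X} {g : G} (hg : g ∈ ⁅R, R⁆) : mu c R x g = 1 := by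
  have h1 : g ∈ (commutator ↥R).map R.subtype := by rw [Subgroup.map_subtype_commutator]; exact hg
  obtain ⟨g', hg', rfl⟩ := h1
  exact Abelianization.commutator_subset_ker (muHom hc R x) hg'

theorem mu_pow (hc : IsCoc c) {R : Subgroup G} {x : X} {g : G} (hg : g ∈ R) (n : ℕ) :
    mu c R x (g ^ n) = mu c R x g ^ n := map_pow (muHom hc R x) ⟨g, hg⟩ n

theorem mu_shift (hc : IsCoc c) {R : Subgroup G} {x : X} {g e : G} (h : e⁻¹ * g * e ∈ R) :
    ∏ y ∈ orbF R x, c g (e • y) = mu c R x (e⁻¹ * g * e) := by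
  have h1 : (∏ y ∈ orbF R x, c g (e • y)) * ∏ y ∈ orbF R x, c e y
      = (∏ y ∈ orbF R x, c e y) * mu c R x (e⁻¹ * g * e) := by
    unfold mu
    rw [← Finset.prod_mul_distrib]
    conv_rhs => rw [← prod_shift h (fun y => c e y), ← Finset.prod_mul_distrib]
    refine Finset.prod_congr rfl fun y _ => ?_
    rw [← hc, ← hc]
    congr 1
    group
  rw [mul_comm] at h1
  exact mul_left_cancel h1

theorem prod_orbit_two [Finite G] {Y Q : Subgroup G} (hQY : Q ≤ Y) (hQn : Y ≤ normalizer (Q : Set G))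
    (hidx : Q.relIndex Y = 2) {e : G} (he : e ∈ Y) (heQ : e ∉ Q) (x : X)
    (hst : ∀ y ∈ Y, y • x = x → y ∈ Q) (F : X → A) :
    ∏ y ∈ orbF Y x, F y = (∏ y ∈ orbF Q x, F y) * ∏ y ∈ orbF Q x, F (e • y) := by
  have h2 : Fact (Nat.Prime 2) := ⟨Nat.prime_two⟩
  have := prod_orbit hQY hQn hidx he heQ x hst F
  rw [this, Finset.prod_range_succ, Finset.prod_range_one, pow_zero, pow_one]
  simp

theorem mu_step [Finite G] (hc : IsCoc c) {Y Q : Subgroup G} (hQY : Q ≤ Y) (hQn : Y ≤ normalizer (Q : Set G))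
    (hidx : Q.relIndex Y = 2) {e : G} (he : e ∈ Y) (heQ : e ∉ Q) (x : X)
    (hst : ∀ y ∈ Y, y • x = x → y ∈ Q) {g : G} (hg : g ∈ Q) :
    mu c Y x g = mu c Q x g * mu c Q x (e⁻¹ * g * e) := by
  have h1 : e⁻¹ * g * e ∈ Q := conj_mem_of_le_normalizer' hQn he hg
  rw [← mu_shift hc h1]
  exact prod_orbit_two hQY hQn hidx he heQ x hst _

theorem mu_step' [Finite G] (hc : IsCoc c) {Y Q : Subgroup G} (hQY : Q ≤ Y) (hQn : Y ≤ normalizer (Q : Set G))
    (hidx : Q.relIndex Y = 2) {e : G} (he : e ∈ Y) (heQ : e ∉ Q) (x : X)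
    (hst : ∀ y ∈ Y, y • x = x → y ∈ Q) :
    mu c Y x e = mu c Q x (e * e) := by
  unfold mu
  rw [prod_orbit_two hQY hQn hidx he heQ x hst, ← Finset.prod_mul_distrib]
  refine Finset.prod_congr rfl fun y _ => ?_
  rw [hc, mul_comm]

theorem mu_fixed {R : Subgroup G} {x : X} (h : ∀ r ∈ R, r • x = x) (g : G) : mu c R x g = c g x := by
  have : orbF R x = {x} := by
    ext q
    rw [mem_orbF, Finset.mem_singleton]
    constructor
    · rintro ⟨w, rfl⟩
      exact h w w.2
    · rintro rfl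
      exact MulAction.mem_orbit_self q
  unfold mu
  rw [this, Finset.prod_singleton]

/-- an index two step above `R` in a 2-group -/
theorem exists_two_step [Finite G] {R P : Subgroup G} (hP : IsPGroup 2 P) (hRP : R < P) :
    ∃ R' : Subgroup G, R ≤ R' ∧ R' ≤ P ∧ R' ≤ normalizer (R : Set G) ∧ R.relIndex R' = 2 := by
  have h2 : Fact (Nat.Prime 2) := ⟨Nat.prime_two⟩
  obtain ⟨k, hk⟩ := IsPGroup.iff_card.mp (hP.to_le hRP.le)
  obtain ⟨m, hm⟩ := IsPGroup.iff_card.mp hP
  have hlt : Nat.card R < Nat.card P := by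
    rcases (Subgroup.card_le_of_le hRP.le).lt_or_eq with h | h
    · exact h
    · exact absurd (Subgroup.eq_of_le_of_card_ge hRP.le h.ge) hRP.ne
  have hkm : k < m := by
    rw [hk, hm] at hlt
    exact (Nat.pow_lt_pow_iff_right one_lt_two).mp hlt
  have h3 : Nat.card (R.subgroupOf P) = 2 ^ k := by
    rw [← hk]; exact Nat.card_congr (subgroupOfEquivOfLe hRP.le).toEquiv
  obtain ⟨K, hK, hle⟩ := Sylow.exists_subgroup_card_pow_succ (p := 2) (n := k) (H := R.subgroupOf P)
    (by rw [hm]; exact pow_dvd_pow 2 hkm) h3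
  refine ⟨K.map P.subtype, ?_, map_subtype_le K, ?_, ?_⟩
  · have := Subgroup.map_mono (f := P.subtype) hle
    rwa [map_subgroupOf_eq_of_le hRP.le] at this
  · have h4 : R ≤ K.map P.subtype := by
      have := Subgroup.map_mono (f := P.subtype) hle
      rwa [map_subgroupOf_eq_of_le hRP.le] at this
    have h5 : R.relIndex (K.map P.subtype) = 2 := by
      have h6 := Subgroup.card_mul_index (R.subgroupOf (K.map P.subtype))
      rw [Nat.card_congr (subgroupOfEquivOfLe h4).toEquiv, hk,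
        Nat.card_congr (K.equivMapOfInjective P.subtype P.subtype_injective).toEquiv.symm, hK, pow_succ] at h6
      exact Nat.eq_of_mul_eq_mul_left (pow_pos two_pos k) h6
    have h7 : (R.subgroupOf (K.map P.subtype)).Normal := Subgroup.normal_of_index_eq_two h5
    exact le_normalizer_of_normal_subgroupOf h4
  · have h4 : R ≤ K.map P.subtype := by
      have := Subgroup.map_mono (f := P.subtype) hle
      rwa [map_subgroupOf_eq_of_le hRP.le] at this
    have h6 := Subgroup.card_mul_index (R.subgroupOf (K.map P.subtype))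
    rw [Nat.card_congr (subgroupOfEquivOfLe h4).toEquiv, hk,
      Nat.card_congr (K.equivMapOfInjective P.subtype P.subtype_injective).toEquiv.symm, hK, pow_succ] at h6
    exact Nat.eq_of_mul_eq_mul_left (pow_pos two_pos k) h6

/-- a subgroup of index two above `R` below `P` -/
theorem exists_two_below [Finite G] {R P : Subgroup G} (hP : IsPGroup 2 P) (hRP : R < P) :
    ∃ Q : Subgroup G, R ≤ Q ∧ Q ≤ P ∧ P ≤ normalizer (Q : Set G) ∧ Q.relIndex P = 2 := by
  have h2 : Fact (Nat.Prime 2) := ⟨Nat.prime_two⟩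
  have h1 : R.subgroupOf P ≠ ⊤ := by
    rw [Ne, subgroupOf_eq_top]
    exact fun h => absurd (le_antisymm hRP.le h) hRP.ne
  obtain ⟨M, hM, hle⟩ := (eq_top_or_exists_le_coatom (R.subgroupOf P)).resolve_left h1
  have hMn := H70Frattini.coatom_normal hP hM
  have hMi := H70Frattini.coatom_index hP hM
  have e : (M.map P.subtype).subgroupOf P = M := Subgroup.comap_map_eq_self_of_injective P.subtype_injective M
  refine ⟨M.map P.subtype, ?_, map_subtype_le M, ?_, ?_⟩
  · have := Subgroup.map_mono (f := P.subtype) hle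
    rwa [map_subgroupOf_eq_of_le hRP.le] at this
  · have : ((M.map P.subtype).subgroupOf P).Normal := by rw [e]; exact hMn
    exact le_normalizer_of_normal_subgroupOf (map_subtype_le M)
  · unfold Subgroup.relIndex
    rw [e]; exact hMi

/-- triviality passes up -/
theorem mu_trivial_up [Finite G] (hc : IsCoc c) {P : Subgroup G} (hP : IsPGroup 2 P) (x : X) :
    ∀ (n : ℕ) (R : Subgroup G), Nat.card P - Nat.card R = n → R ≤ P → (∀ y ∈ P, y • x = x → y ∈ R) →
      (∀ g ∈ R, mu c R x g = 1) → ∀ g ∈ P, mu c P x g = 1 := by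
  intro n
  induction n using Nat.strong_induction_on with
  | _ n ih =>
  intro R hn hRP hst htriv
  rcases hRP.eq_or_lt with rfl | hlt
  · exact htriv
  obtain ⟨R', hRR', hR'P, hnorm, hidx⟩ := exists_two_step hP hlt
  have hR : ¬ R' ≤ R := by
    intro h
    rw [Subgroup.relIndex_eq_one.mpr h] at hidx
    omega
  obtain ⟨e, he, heR⟩ := SetLike.not_le_iff_exists.mp hR
  have hltc : Nat.card R < Nat.card R' := by
    rcases (Subgroup.card_le_of_le hRR').lt_or_eq with h | h
    · exact h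
    · exact absurd (Subgroup.eq_of_le_of_card_ge hRR' h.ge).ge hR
  have hle2 : Nat.card R' ≤ Nat.card P := Subgroup.card_le_of_le hR'P
  refine ih (Nat.card P - Nat.card R') (by omega) R' rfl hR'P (fun y hy hyx => hRR' (hst y hy hyx)) ?_
  intro g hg
  have hst' : ∀ y ∈ R', y • x = x → y ∈ R := fun y hy hyx => hst y (hR'P hy) hyx
  by_cases hgR : g ∈ R
  · rw [mu_step hc hRR' hnorm hidx he heR x hst' hgR, htriv g hgR, one_mul]
    exact htriv _ (conj_mem_of_le_normalizer' hnorm he hgR)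
  · rw [mu_step' hc hRR' hnorm hidx hg hgR x hst']
    have h3 : (R.subgroupOf R').Normal := normal_subgroupOf_of_le_normalizer hnorm
    have h4 := Subgroup.mul_self_mem_of_index_two hidx ⟨g, hg⟩
    exact htriv _ h4

end coc

section ofHom

variable {H : Subgroup G} {A : Type*} [CommGroup A] (φ : ↥H →* A)

/-- the cocycle of a homomorphism -/
noncomputable def cc (g : G) (q : G ⧸ H) : A := fx φ ((g • q).out⁻¹ * g * q.out)

theorem out_mem (g : G) (q : G ⧸ H) : (g • q).out⁻¹ * g * q.out ∈ H := by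
  rw [mul_assoc, ← QuotientGroup.eq, QuotientGroup.out_eq']
  have : ((g * q.out : G) : G ⧸ H) = g • ((q.out : G) : G ⧸ H) := rfl
  rw [this, QuotientGroup.out_eq']

theorem cc_isCoc : IsCoc (cc φ) := by
  intro g h q
  unfold cc
  have h1 := out_mem (H := H) g (h • q)
  have h2 := out_mem (H := H) h q
  rw [← fx_mul φ h1 h2, mul_smul]
  congr 1
  group

theorem cc_fixed {g : G} {x : G} (h : g • (x : G ⧸ H) = (x : G ⧸ H)) : cc φ g (x : G ⧸ H) = fx φ (x⁻¹ * g * x) := by
  rw [← fq_mk]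
  unfold cc fq
  rw [h]

/-- total product: a homomorphism of `G` -/
noncomputable def tot [Fintype (G ⧸ H)] : G →* A where
  toFun g := ∏ q, cc φ g q
  map_one' := by
    apply Finset.prod_eq_one
    intro q _
    have := cc_isCoc φ 1 1 q
    rw [mul_one, one_smul] at this
    exact (mul_eq_left.mp this.symm)
  map_mul' g h := by
    have h1 : ∏ q, cc φ g (h • q) = ∏ q, cc φ g q := Fintype.prod_equiv (MulAction.toPerm h) _ _ (fun _ => rfl)
    rw [← h1, ← Finset.prod_mul_distrib]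
    exact Finset.prod_congr rfl fun q _ => cc_isCoc φ g h q

/-- homomorphisms onto groups of exponent `2 ^ k` vanish when `G = O^2(G)` -/
theorem hom_trivial {B : Type*} [Group B] {k : ℕ} (hres : pResidual 2 G = ⊤) (hB : ∀ b : B, b ^ (2 ^ k) = 1)
    (f : G →* B) (g : G) : f g = 1 := by
  have h1 : pResidual 2 G ≤ f.ker := by
    unfold pResidual
    rw [closure_le]
    intro x hx
    change f x = 1
    have h2 : orderOf (f x) ∣ 2 ^ k := orderOf_dvd_of_pow_eq_one (hB _)
    have h3 : orderOf (f x) ∣ orderOf x := orderOf_map_dvd f x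
    have h4 : (orderOf x).Coprime (2 ^ k) := Nat.Coprime.pow_right k hx
    have h5 : orderOf (f x) ∣ Nat.gcd (orderOf x) (2 ^ k) := Nat.dvd_gcd h3 h2
    rw [h4, Nat.dvd_one] at h5
    exact orderOf_eq_one_iff.mp h5
  rw [hres] at h1
  exact h1 (mem_top g)

/-- the basic consequence -/
theorem exists_bad [Finite G] [Fintype (G ⧸ H)] (htot : ∀ g, tot φ g = 1) {P : Subgroup G} (hPH : P ≤ H)
    {u : G} (hu : u ∈ P) (hφ : fx φ u ≠ 1) :
    ∃ x : G, x ∉ H ∧ mu (cc φ) P (x : G ⧸ H) u ≠ 1 := by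
  have hfix1 : ∀ w ∈ P, w • ((1 : G) : G ⧸ H) = ((1 : G) : G ⧸ H) := by
    intro w hw
    rw [smul_mk_eq_iff]
    simpa using hPH hw
  obtain ⟨q₀, hq₀1, _, hq₀⟩ := exists_orbit P (cc φ u) ((1 : G) : G ⧸ H) hfix1
    (by rw [cc_fixed φ (hfix1 u hu)]; simpa using hφ) (htot u)
  obtain ⟨x₀, rfl⟩ := QuotientGroup.mk_surjective q₀
  refine ⟨x₀, ?_, hq₀⟩
  intro h
  apply hq₀1
  rw [QuotientGroup.eq, mul_one]
  exact H.inv_mem h

end ofHom

end Cfsg.Agent.Lib.CocTr
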