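import Mathlib
import Cfsg.Prelude.Def_PLocal
import Cfsg.Prelude.Def_Transfer
import Cfsg.Agent.Lib.CocTr
import Cfsg.Agent.Lib.LocTrace
import Cfsg.Agent.Lib.FrakM
import Cfsg.Agent.Lib.LargeExtra
import Cfsg.Agent.Lib.ExtraOrd
import Cfsg.Agent.Lib.LocMore
import Cfsg.Agent.Lib.ExtraInner
import Cfsg.Agent.Lib.PGroupOdd

/-!
Transfer in groups with an extraspecial `O_2(C(z))` (helper47).
-/

set_option autoImplicit false

namespace Cfsg.Agent.Lib.CocExt

open Subgroup Cfsg Cfsg.Agent.Lib Cfsg.Agent.Lib.LocBase Cfsg.Agent.Lib.Yoshida Cfsg.Agent.Lib.CocTr Cfsg.Agent.Lib.FrakM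
open scoped commutatorElement

variable {G : Type*} [Group G]

structure Ctx (E : Subgroup G) (z : G) : Prop where
  ex : LargeExtra.ExData E z
  ext : IsExtraspecial 2 ↥E
  nE : centralizer ({z} : Set G) ≤ normalizer (E : Set G)
  cent : centralizer (E : Set G) ≤ E

variable {E : Subgroup G} {z : G}

theorem Ctx.of [Finite G] (z : G) (hz : orderOf z = 2) (E : Subgroup G)
    (hE : E = (Cfsg.pCore 2 ↥(Subgroup.centralizer ({z} : Set G))).map (Subgroup.centralizer ({z} : Set G)).subtype)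
    (hext : Cfsg.IsExtraspecial 2 ↥E) (hcent : Subgroup.centralizer (E : Set G) ≤ E) : Ctx E z := by
  obtain ⟨z', hz'⟩ := LargeExtra.exists_exData hext
  have hEH : E ≤ centralizer ({z} : Set G) := by rw [hE]; exact map_subtype_le _
  have hzC : z ∈ centralizer (E : Set G) := by
    rw [mem_centralizer_iff]
    intro e he
    exact (mem_centralizer_singleton_iff.mp (hEH he)).symm ▸ rfl
  have hzE := hcent hzC
  have hz1 : z ≠ 1 := by rintro rfl; rw [orderOf_one] at hz; omega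
  have hzz' : z = z' := by
    rcases hz'.center z hzE (fun x hx => ((mem_centralizer_iff.mp hzC) x hx).symm) with h | h
    · exact absurd h hz1
    · exact h
  subst hzz'
  refine ⟨hz', hext, ?_, hcent⟩
  have h1 : (Cfsg.pCore 2 ↥(centralizer ({z} : Set G))).Normal := LargeExtra.pCore_normal'
  rw [hE]
  intro g hg
  apply mem_normalizer_of_map_conj_le
  rintro _ ⟨_, ⟨x, hx, rfl⟩, rfl⟩
  exact ⟨_, h1.conj_mem x hx ⟨g, hg⟩, rfl⟩

theorem Ctx.le (h : Ctx E z) : E ≤ centralizer ({z} : Set G) := by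
  intro e he
  rw [mem_centralizer_singleton_iff]
  exact h.ex.cen e he

theorem fix_iff {x₀ g : G} :
    g • (x₀ : G ⧸ centralizer ({z} : Set G)) = (x₀ : G ⧸ centralizer ({z} : Set G)) ↔
      g ∈ centralizer ({x₀ * z * x₀⁻¹} : Set G) := by
  rw [smul_mk_eq_iff, mem_centralizer_singleton_iff, mem_centralizer_singleton_iff]
  constructor
  · intro h
    have : g * (x₀ * z * x₀⁻¹) = x₀ * ((x₀⁻¹ * g * x₀) * z) * x₀⁻¹ := by group
    rw [this, h]; group
  · intro h
    have : x₀⁻¹ * g * x₀ * z = x₀⁻¹ * (g * (x₀ * z * x₀⁻¹)) * x₀ := by group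
    rw [this, h]; group

theorem Ctx.ne {x₀ : G} (hx₀ : x₀ ∉ centralizer ({z} : Set G)) : x₀ * z * x₀⁻¹ ≠ z := by
  intro h
  apply hx₀
  rw [mem_centralizer_singleton_iff]
  rwa [mul_inv_eq_iff_eq_mul] at h

theorem Ctx.mem_of_cent (h : Ctx E z) {w : G} (hw : w ∈ centralizer (E : Set G)) : w = 1 ∨ w = z :=
  h.ex.center w (h.cent hw) (fun x hx => ((mem_centralizer_iff.mp hw) x hx).symm)

theorem Ctx.not_le (h : Ctx E z) {x₀ : G} (hx₀ : x₀ ∉ centralizer ({z} : Set G)) :
    ¬ E ≤ centralizer ({x₀ * z * x₀⁻¹} : Set G) := by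
  intro hle
  have h1 : x₀ * z * x₀⁻¹ ∈ centralizer (E : Set G) := by
    rw [mem_centralizer_iff]
    intro e he
    exact mem_centralizer_singleton_iff.mp (hle he)
  rcases h.mem_of_cent h1 with h2 | h2
  · apply h.ex.ne
    have : z = x₀⁻¹ * (x₀ * z * x₀⁻¹) * x₀ := by group
    rw [this, h2]; group
  · exact Ctx.ne hx₀ h2

theorem Ctx.decomp [Finite G] (h : Ctx E z) {P : Subgroup G} (hP : IsPGroup 2 P) (hEP : E ≤ P)
    (hPH : P ≤ centralizer ({z} : Set G)) {x₀ : G} (hx₀ : x₀ ∉ centralizer ({z} : Set G)) :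
    ∃ (Y R : Subgroup G) (e : G), e ∈ E ∧ E ≤ Y ∧ Y ≤ P ∧ R ≤ Y ∧ Y ≤ normalizer (R : Set G) ∧ R.relIndex Y = 2 ∧
      e ∉ R ∧ P ⊓ centralizer ({x₀ * z * x₀⁻¹} : Set G) ≤ R ∧ (R ⊓ E).relIndex E = 2 ∧ R ⊔ E = Y ∧
      (P ⊓ centralizer ({x₀ * z * x₀⁻¹} : Set G)) ⊔ E = Y := by
  set T := P ⊓ centralizer ({x₀ * z * x₀⁻¹} : Set G) with hT
  have hTE : T < T ⊔ E := by
    refine lt_of_le_of_ne le_sup_left ?_
    intro he
    have h1 : E ≤ T := he ▸ le_sup_right
    exact h.not_le hx₀ (h1.trans inf_le_right)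
  have hYP : T ⊔ E ≤ P := sup_le inf_le_left hEP
  obtain ⟨R, hTR, hRY, hn, hi⟩ := exists_two_below (hP.to_le hYP) hTE
  have hRE : R ⊔ E = T ⊔ E := le_antisymm (sup_le hRY le_sup_right) (sup_le_sup_right hTR E)
  have hER : ¬ E ≤ R := by
    intro h1
    have : T ⊔ E ≤ R := sup_le hTR h1
    rw [Subgroup.relIndex_eq_one.mpr this] at hi
    omega
  obtain ⟨e, he, heR⟩ := SetLike.not_le_iff_exists.mp hER
  refine ⟨T ⊔ E, R, e, he, le_sup_right, hYP, hRY, hn, hi, heR, hTR, ?_, hRE, rfl⟩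
  rw [Subgroup.inf_relIndex_right, ← relIndex_sup_eq ((hRY.trans hYP).trans (hPH.trans h.nE)), hRE]
  exact hi

theorem Ctx.comm_or (h : Ctx E z) {g e : G} (hg : g ∈ E) (he : e ∈ E) : g * (e⁻¹ * g * e) = 1 ∨ g * (e⁻¹ * g * e) = z := by
  have hzz := h.ex.sq
  have h1 : e⁻¹ * g * e = g ∨ e⁻¹ * g * e = z * g := by
    rcases h.ex.comm g hg e he with h1 | h1
    · left; rw [mul_assoc, h1, inv_mul_cancel_left]
    · right
      rw [mul_assoc, h1, ← mul_assoc, ← mul_assoc, h.ex.cen e⁻¹ (E.inv_mem he)]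
      group
  rcases h1 with h1 | h1
  · rw [h1]; exact h.ex.qsq g hg
  · rw [h1, ← mul_assoc, h.ex.cen g hg, mul_assoc]
    rcases h.ex.qsq g hg with h2 | h2
    · right; rw [h2, mul_one]
    · left; rw [h2, hzz]

theorem Ctx.z_mem_commutator (h : Ctx E z) {M : Subgroup G} (hM : M ≤ E) (hne : ∃ a ∈ M, ∃ b ∈ M, a * b ≠ b * a) :
    z ∈ ⁅M, M⁆ := by
  obtain ⟨a, ha, b, hb, hab⟩ := hne
  have h1 := (h.ex.comm a (hM ha) b (hM hb)).resolve_left hab
  have h2 : ⁅a, b⁆ = z := by
    rw [commutatorElement_def, mul_inv_eq_iff_eq_mul, mul_inv_eq_iff_eq_mul, h1, mul_assoc]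
  rw [← h2]
  exact commutator_mem_commutator ha hb

theorem Ctx.nonab [Finite G] (h : Ctx E z) {M : Subgroup G} (hM : M ≤ E) (hc : 2 * Nat.card E < Nat.card M ^ 2) :
    ∃ a ∈ M, ∃ b ∈ M, a * b ≠ b * a := by
  by_contra hcon
  push Not at hcon
  have h2 : Fact (Nat.Prime 2) := ⟨Nat.prime_two⟩
  have h1 := ExtraOrd.card_sq_le h.ext (A := M.subgroupOf E) (by
    refine ⟨⟨?_⟩⟩
    rintro ⟨⟨a, ha⟩, ha'⟩ ⟨⟨b, hb⟩, hb'⟩
    apply Subtype.ext
    apply Subtype.ext
    exact hcon a ha' b hb')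
  rw [Nat.card_congr (subgroupOfEquivOfLe hM).toEquiv] at h1
  omega

/-- the value at `z` is trivial -/
theorem Ctx.mu_z [Finite G] (h : Ctx E z) {X : Type*} [MulAction G X] [Fintype X] {A : Type*} [CommGroup A]
    {c : G → X → A} (hc : IsCoc c) {R : Subgroup G} (hR : 2 * Nat.card E < Nat.card ↥(R ⊓ E) ^ 2) (x : X) :
    mu c R x z = 1 :=
  mu_commutator hc (commutator_mono inf_le_left inf_le_left (h.z_mem_commutator inf_le_right (h.nonab inf_le_right hR)))

/-- S3299 -/
theorem Ctx.thm1 [Finite G] (h : Ctx E z) (hres : pResidual 2 G = ⊤) (hcard : 16 < Nat.card E)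
    {A : Type*} [CommGroup A] (hA : ∀ a : A, a ^ 2 = 1) (φ : ↥(centralizer ({z} : Set G)) →* A) {u : G} (hu : u ∈ E) :
    fx φ u = 1 := by
  by_contra hne
  have : Fintype (G ⧸ centralizer ({z} : Set G)) := Fintype.ofFinite _
  have htot : ∀ g, tot φ g = 1 := hom_trivial (k := 1) hres (by simpa using hA) (tot φ)
  obtain ⟨x₀, hx₀, hmu⟩ := exists_bad φ htot h.le hu hne
  obtain ⟨Y, R, e, he, hEY, hYE, hRY, hn, hi, heR, hTR, hMi, _, _⟩ := h.decomp h.ex.isP le_rfl h.le hx₀
  obtain rfl : Y = E := le_antisymm hYE hEY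
  have hRE : R ⊓ Y = R := inf_eq_left.mpr hRY
  rw [hRE] at hMi
  have hcR : Nat.card R * 2 = Nat.card Y := by rw [← hi]; exact card_mul_relIndex hRY
  have hz := h.mu_z (cc_isCoc φ) (R := R) (by rw [hRE]; nlinarith) (x₀ : G ⧸ centralizer ({z} : Set G))
  have hst : ∀ y ∈ Y, y • (x₀ : G ⧸ centralizer ({z} : Set G)) = (x₀ : G ⧸ centralizer ({z} : Set G)) → y ∈ R := by
    intro y hy hyx
    exact hTR ⟨hy, fix_iff.mp hyx⟩
  have h1 := mu_one (cc_isCoc φ) R (x₀ : G ⧸ centralizer ({z} : Set G))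
  apply hmu
  by_cases huR : u ∈ R
  · rw [mu_step (cc_isCoc φ) hRY hn hi he heR _ hst huR, ← mu_mul (cc_isCoc φ) _ (conj_mem_of_le_normalizer' hn he huR)]
    rcases h.comm_or hu he with h2 | h2 <;> rw [h2]
    · exact h1
    · exact hz
  · rw [mu_step' (cc_isCoc φ) hRY hn hi hu huR _ hst]
    rcases h.ex.qsq u hu with h2 | h2 <;> rw [h2]
    · exact h1
    · exact hz

/-- the vector `v` -/
theorem comm_mem_inf {R Y : Subgroup G} (h : Ctx E z) (hRH : R ≤ centralizer ({z} : Set G)) (hEY : E ≤ Y)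
    (hn : Y ≤ normalizer (R : Set G)) {g e : G} (hg : g ∈ R) (he : e ∈ E) : g⁻¹ * (e⁻¹ * g * e) ∈ R ⊓ E := by
  refine ⟨R.mul_mem (R.inv_mem hg) (conj_mem_of_le_normalizer' hn (hEY he) hg), ?_⟩
  have h1 : g⁻¹ * (e⁻¹ * g * e) = (g⁻¹ * e⁻¹ * g) * e := by group
  rw [h1]
  exact E.mul_mem (conj_mem_of_le_normalizer' h.nE (hRH hg) (E.inv_mem he)) he

/-- S3301, large case -/
theorem Ctx.thm2 [Finite G] (h : Ctx E z) (hres : pResidual 2 G = ⊤) (hcard : 16 < Nat.card E)
    {A : Type*} [CommGroup A] (hA : ∀ a : A, a ^ 4 = 1) (φ : ↥(centralizer ({z} : Set G)) →* A)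
    {P : Subgroup G} (hP : IsPGroup 2 P) (hEP : E ≤ P) (hPH : P ≤ centralizer ({z} : Set G)) {u : G} (hu : u ∈ P) :
    fx φ u ^ 2 = 1 := by
  by_contra hne
  have : Fintype (G ⧸ centralizer ({z} : Set G)) := Fintype.ofFinite _
  set φ2 : ↥(centralizer ({z} : Set G)) →* A := (powMonoidHom 2).comp φ with hφ2
  have hfx : ∀ g, fx φ2 g = fx φ g ^ 2 := by
    intro g
    by_cases hg : g ∈ centralizer ({z} : Set G)
    · rw [fx_of_mem φ2 hg, fx_of_mem φ hg]; rfl
    · rw [fx_of_not_mem φ2 hg, fx_of_not_mem φ hg, one_pow]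
  have hcc : ∀ R x g, mu (cc φ2) R x g = mu (cc φ) R x g ^ 2 := by
    intro R x g
    unfold mu
    rw [← Finset.prod_pow]
    exact Finset.prod_congr rfl fun y _ => hfx _
  have htot : ∀ g, tot φ2 g = 1 := hom_trivial (k := 2) hres (by simpa using hA) (tot φ2)
  obtain ⟨x₀, hx₀, hmu⟩ := exists_bad φ2 htot hPH hu (by rw [hfx]; exact hne)
  obtain ⟨Y, R, e, he, hEY, hYP, hRY, hn, hi, heR, hTR, hMi, hREY, hTE⟩ := h.decomp hP hEP hPH hx₀
  have hcM : Nat.card ↥(R ⊓ E) * 2 = Nat.card E := by rw [← hMi]; exact card_mul_relIndex inf_le_right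
  have hz := h.mu_z (cc_isCoc φ) (R := R) (by nlinarith) (x₀ : G ⧸ centralizer ({z} : Set G))
  have hst : ∀ y ∈ P, y • (x₀ : G ⧸ centralizer ({z} : Set G)) = (x₀ : G ⧸ centralizer ({z} : Set G)) → y ∈ R := by
    intro y hy hyx
    exact hTR ⟨hy, fix_iff.mp hyx⟩
  have h1 := mu_one (cc_isCoc φ) R (x₀ : G ⧸ centralizer ({z} : Set G))
  have hE1 : ∀ v ∈ R ⊓ E, mu (cc φ) R (x₀ : G ⧸ centralizer ({z} : Set G)) v ^ 2 = 1 := by
    intro v hv
    rw [← mu_pow (cc_isCoc φ) hv.1, pow_two]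
    rcases h.ex.qsq v hv.2 with h2 | h2 <;> rw [h2]
    · exact h1
    · exact hz
  have hY : ∀ g ∈ R, mu (cc φ) Y (x₀ : G ⧸ centralizer ({z} : Set G)) g ^ 2 = 1 := by
    intro g hg
    rw [mu_step (cc_isCoc φ) hRY hn hi (hEY he) heR _ (fun y hy => hst y (hYP hy)) hg]
    have hv := comm_mem_inf h ((hRY.trans hYP).trans hPH) hEY hn hg he
    have e1 : e⁻¹ * g * e = g * (g⁻¹ * (e⁻¹ * g * e)) := by group
    rw [e1, mu_mul (cc_isCoc φ) _ hv.1, mul_pow, mul_pow, hE1 _ hv, mul_one, ← pow_add]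
    exact hA _
  apply hmu
  refine mu_trivial_up (cc_isCoc φ2) hP _ _ Y rfl hYP (fun y hy hyx => hRY (hst y hy hyx)) ?_ u hu
  intro g hg
  rw [hcc]
  by_cases hgR : g ∈ R
  · exact hY g hgR
  · have h2 : (R.subgroupOf Y).index = 2 := hi
    have h3 : g * e⁻¹ ∈ R := by
      have := (Subgroup.mul_mem_iff_of_index_two h2 (a := ⟨g, hg⟩) (b := ⟨e⁻¹, Y.inv_mem (hEY he)⟩)).mpr (by
        constructor
        · intro h3; exact absurd h3 hgR
        · intro h3
          exfalso; apply heR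
          have h4 : e⁻¹ ∈ R := h3
          simpa using R.inv_mem h4)
      exact this
    have e1 : g = (g * e⁻¹) * e := by group
    rw [e1, mu_mul (cc_isCoc φ) _ (hEY he), mul_pow, hY _ h3, one_mul,
      mu_step' (cc_isCoc φ) hRY hn hi (hEY he) heR _ (fun y hy => hst y (hYP hy))]
    rcases h.ex.qsq e he with h5 | h5 <;> rw [h5]
    · rw [h1, one_pow]
    · rw [hz, one_pow]

/-- elements acting trivially on `E / Z(E)` -/
theorem Ctx.mem_of_trivial [Finite G] (h : Ctx E z) {t : G} (ht : t ∈ normalizer (E : Set G))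
    (h1 : ∀ x ∈ E, t * x * t⁻¹ * x⁻¹ = 1 ∨ t * x * t⁻¹ * x⁻¹ = z) : t ∈ E := by
  have htE : ∀ x : ↥E, t * x * t⁻¹ ∈ E := fun x =>
    conj_mem_of_le_normalizer (K := zpowers t) (by rwa [zpowers_le]) (mem_zpowers t) x.2
  let f : ↥E →* ↥E :=
    { toFun := fun x => ⟨t * x * t⁻¹, htE x⟩
      map_one' := by apply Subtype.ext; simp
      map_mul' := fun a b => by apply Subtype.ext; simp [mul_assoc] }
  obtain ⟨g, hg⟩ := ExtraInner.exists_conj Nat.prime_two h.ext f (by
    intro x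
    rw [mem_center_iff]
    intro y
    apply Subtype.ext
    show (y : G) * (t * x * t⁻¹ * (x : G)⁻¹) = (t * x * t⁻¹ * (x : G)⁻¹) * y
    rcases h1 x x.2 with h2 | h2
    · rw [h2]; simp
    · rw [h2]; exact h.ex.cen y y.2)
  have h2 : (g : G)⁻¹ * t ∈ centralizer (E : Set G) := by
    rw [mem_centralizer_iff]
    intro x hx
    have h3 : t * x * t⁻¹ = g * x * (g : G)⁻¹ := congrArg Subtype.val (hg ⟨x, hx⟩)
    have h4 : t * x = g * x * (g : G)⁻¹ * t := by rw [← h3]; group
    rw [mul_assoc, h4]; group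
  have h3 := E.mul_mem g.2 (h.cent h2)
  rwa [mul_inv_cancel_left] at h3

theorem Ctx.z_mem_of (h : Ctx E z) {M : Subgroup G} (hM : M ≤ E) (hne : ∃ a ∈ M, ∃ b ∈ M, a * b ≠ b * a) : z ∈ M :=
  commutator_le_self M (h.z_mem_commutator hM hne)

/-- no transvections -/
theorem Ctx.excl [Finite G] (h : Ctx E z) {M : Subgroup G} (hM : M ≤ E) (hMi : M.relIndex E = 2)
    (hne : ∃ a ∈ M, ∃ b ∈ M, a * b ≠ b * a) {w : G} (hw : w * w = 1) (hwE : w ∉ E)
    (hwM : M ≤ centralizer ({w} : Set G)) : False := by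
  have hzM := h.z_mem_of hM hne
  have hwz : w ∈ centralizer ({z} : Set G) := by
    rw [mem_centralizer_singleton_iff]
    exact (mem_centralizer_singleton_iff.mp (hwM hzM)).symm
  have hwN := h.nE hwz
  have hwconj : ∀ x ∈ E, w * x * w⁻¹ ∈ E := fun x hx =>
    conj_mem_of_le_normalizer (K := zpowers w) (by rwa [zpowers_le]) (mem_zpowers w) hx
  have hwinv : w⁻¹ = w := by rw [inv_eq_iff_mul_eq_one]; exact hw
  have hEM : ¬ E ≤ M := by
    intro h1
    rw [Subgroup.relIndex_eq_one.mpr h1] at hMi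
    omega
  obtain ⟨e, he, heM⟩ := SetLike.not_le_iff_exists.mp hEM
  have hidx : (M.subgroupOf E).index = 2 := hMi
  have hcov : ∀ x ∈ E, x ∉ M → x * e⁻¹ ∈ M := by
    intro x hx hxM
    have := (Subgroup.mul_mem_iff_of_index_two hidx (a := ⟨x, hx⟩) (b := ⟨e⁻¹, E.inv_mem he⟩)).mpr (by
      constructor
      · intro h3; exact absurd h3 hxM
      · intro h3
        exfalso; apply heM
        have h4 : e⁻¹ ∈ M := h3
        simpa using M.inv_mem h4)
    exact this
  obtain ⟨v, hv⟩ : ∃ v, v = e⁻¹ * (w * e * w⁻¹) := ⟨_, rfl⟩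
  have hvE : v ∈ E := by rw [hv]; exact E.mul_mem (E.inv_mem he) (hwconj e he)
  have hev : w * e * w⁻¹ = e * v := by rw [hv]; group
  have hwm : ∀ m ∈ M, w * m * w⁻¹ = m := by
    intro m hm
    have := mem_centralizer_singleton_iff.mp (hwM hm)
    rw [mul_inv_eq_iff_eq_mul]; exact this.symm
  have hMn : ∀ m ∈ M, e⁻¹ * m * e = m ∨ e⁻¹ * m * e = z * m := by
    intro m hm
    rcases h.ex.comm m (hM hm) e he with h1 | h1
    · left; rw [mul_assoc, h1, inv_mul_cancel_left]
    · right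
      rw [mul_assoc, h1, ← mul_assoc, ← mul_assoc, h.ex.cen e⁻¹ (E.inv_mem he)]
      group
  have hvm : ∀ m ∈ M, v * m = m * v := by
    intro m hm
    have key : ∀ ζ : G, ζ ∈ M → (∀ x ∈ E, x * ζ = ζ * x) → e⁻¹ * m * e = ζ * m → v * m = m * v := by
      intro ζ hζ hζc h1
      have h2 : w * (e⁻¹ * m * e) * w⁻¹ = e⁻¹ * m * e := by rw [h1]; exact hwm _ (M.mul_mem hζ hm)
      have h3 : w * (e⁻¹ * m * e) * w⁻¹ = (w * e * w⁻¹)⁻¹ * (w * m * w⁻¹) * (w * e * w⁻¹) := by group
      rw [h3, hwm m hm, hev] at h2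
      have h4 : (e * v)⁻¹ * m * (e * v) = v⁻¹ * (e⁻¹ * m * e) * v := by group
      rw [h4, h1] at h2
      have h5 : v⁻¹ * (ζ * m) * v = ζ * (v⁻¹ * m * v) := by
        have := hζc v⁻¹ (E.inv_mem hvE)
        rw [← mul_assoc v⁻¹ ζ m, this]; group
      rw [h5] at h2
      have h6 := mul_left_cancel h2
      rw [mul_assoc, inv_mul_eq_iff_eq_mul] at h6
      exact h6.symm
    rcases hMn m hm with h1 | h1
    · exact key 1 M.one_mem (fun x _ => by simp) (by rw [one_mul]; exact h1)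
    · exact key z hzM h.ex.cen h1
  have hvM : v ∈ M := by
    by_contra hvM
    have h1 : v * e⁻¹ ∈ M := hcov v hvE hvM
    have h2 : v * e = e * v := by
      have h3 := hvm _ h1
      have h4 : v * e⁻¹ = e⁻¹ * v := by
        have h5 : v * (v * e⁻¹) = v * (e⁻¹ * v) := by rw [h3]; group
        exact mul_left_cancel h5
      have h6 : e * (v * e⁻¹) * e = e * (e⁻¹ * v) * e := by rw [h4]
      have h7 : e * (v * e⁻¹) * e = e * v := by group
      have h8 : e * (e⁻¹ * v) * e = v * e := by group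
      rw [← h7, h6, h8]
    rcases h.ex.center v hvE (by
      intro x hx
      by_cases hxM : x ∈ M
      · exact hvm x hxM
      · have h3 := hvm _ (hcov x hx hxM)
        have h4 : x = x * e⁻¹ * e := by group
        rw [h4, ← mul_assoc, h3, mul_assoc (x * e⁻¹) v e, h2]; group) with h3 | h3
    · exact hvM (h3 ▸ M.one_mem)
    · exact hvM (h3 ▸ hzM)
  have hvv : v * v = 1 := by
    have h1 : w * (w * e * w⁻¹) * w⁻¹ = e := by
      have : w * (w * e * w⁻¹) * w⁻¹ = (w * w) * e * (w * w)⁻¹ := by group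
      rw [this, hw]; group
    rw [hev] at h1
    have h2 : w * (e * v) * w⁻¹ = (w * e * w⁻¹) * (w * v * w⁻¹) := by group
    rw [h2, hev, hwm v hvM, mul_assoc] at h1
    exact mul_eq_left.mp h1
  have hesq : e * e = 1 ∨ e * e = z := h.ex.qsq e he
  have hesqM : e * e ∈ M := by rcases hesq with h1 | h1 <;> rw [h1]; exacts [M.one_mem, hzM]
  have h3 : (e * v) * (e * v) = e * e := by
    rw [← hev]
    have : w * e * w⁻¹ * (w * e * w⁻¹) = w * (e * e) * w⁻¹ := by group
    rw [this]; exact hwm _ hesqM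
  rcases h.ex.comm e he v hvE with h4 | h4
  · -- `v` central in `E`
    rcases h.ex.center v hvE (by
      intro x hx
      by_cases hxM : x ∈ M
      · exact hvm x hxM
      · have h5 := hvm _ (hcov x hx hxM)
        have h6 : x = x * e⁻¹ * e := by group
        rw [h6, ← mul_assoc, h5, mul_assoc (x * e⁻¹) v e, ← h4]; group) with h5 | h5
    · -- `w` centralizes `E`
      have h6 : w ∈ centralizer (E : Set G) := by
        rw [mem_centralizer_iff]
        intro x hx
        have hwe : e * w = w * e := by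
          rw [h5, mul_one] at hev
          rw [mul_inv_eq_iff_eq_mul] at hev
          exact hev.symm
        by_cases hxM : x ∈ M
        · exact mem_centralizer_singleton_iff.mp (hwM hxM)
        · have h7 := mem_centralizer_singleton_iff.mp (hwM (hcov x hx hxM))
          have h8 : x = x * e⁻¹ * e := by group
          rw [h8, mul_assoc (x * e⁻¹) e w, hwe, ← mul_assoc, h7]; group
      exact hwE (h.cent h6)
    · -- `v = z`
      have h2 : Fact (Nat.Prime 2) := ⟨Nat.prime_two⟩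
      have hcc := ExtraOrd.card_centralizer_mul_card h.ext (H := M.subgroupOf E) (by
        intro x hx
        rw [mem_subgroupOf]
        rcases h.ex.center x x.2 (fun y hy => by
          have := (mem_center_iff.mp hx) ⟨y, hy⟩
          exact (congrArg Subtype.val this).symm) with h6 | h6 <;> rw [h6]
        exacts [M.one_mem, hzM])
      rw [Nat.card_congr (subgroupOfEquivOfLe hM).toEquiv, ← card_mul_relIndex hM, hMi] at hcc
      have hc4 : Nat.card (centralizer ((M.subgroupOf E : Subgroup ↥E) : Set ↥E)) = 4 := by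
        have hpos : 0 < Nat.card M := Nat.card_pos
        have : Nat.card (centralizer ((M.subgroupOf E : Subgroup ↥E) : Set ↥E)) * Nat.card M = 4 * Nat.card M := by
          rw [hcc]; ring
        exact Nat.eq_of_mul_eq_mul_right hpos this
      obtain ⟨y, hy, hy1⟩ : ∃ y ∈ centralizer ((M.subgroupOf E : Subgroup ↥E) : Set ↥E), y ∉ center ↥E := by
        by_contra hcon
        push Not at hcon
        have h6 := Subgroup.card_le_of_le (show centralizer ((M.subgroupOf E : Subgroup ↥E) : Set ↥E) ≤ center ↥E from hcon)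
        rw [hc4, h.ext.2] at h6
        omega
      have hyM : ∀ m ∈ M, m * (y : G) = y * m := fun m hm =>
        congrArg Subtype.val ((mem_centralizer_iff.mp hy) ⟨m, hM hm⟩ hm)
      have hye : ¬ e * (y : G) = y * e := by
        intro h6
        apply hy1
        rw [mem_center_iff]
        intro x
        apply Subtype.ext
        show (x : G) * y = y * x
        by_cases hxM : (x : G) ∈ M
        · exact hyM x hxM
        · have h7 := hyM _ (hcov x x.2 hxM)
          have h8 : (x : G) = x * e⁻¹ * e := by group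
          rw [h8, mul_assoc ((x : G) * e⁻¹) e y, h6, ← mul_assoc, h7]; group
      have h6 := (h.ex.comm e he y y.2).resolve_left hye
      -- `y⁻¹ w` centralizes `E`
      have h7 : w * e = e * z * w := by rw [h5, mul_inv_eq_iff_eq_mul] at hev; exact hev
      have hzy := h.ex.cen y y.2
      have hze := h.ex.cen e he
      have h8 : e * ((y : G)⁻¹ * w) = ((y : G)⁻¹ * w) * e := by
        have h9 : (y : G) * e = z * (e * y) := by
          rw [h6, ← mul_assoc, h.ex.sq, one_mul]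
        have h10 : (y : G) * (e * ((y : G)⁻¹ * w)) = z * e * w := by
          rw [← mul_assoc, h9]; group
        have h11 : (y : G) * (((y : G)⁻¹ * w) * e) = z * e * w := by
          have : (y : G) * (((y : G)⁻¹ * w) * e) = w * e := by group
          rw [this, h7, hze]
        exact mul_left_cancel (h10.trans h11.symm)
      have h9 : (y : G)⁻¹ * w ∈ centralizer (E : Set G) := by
        rw [mem_centralizer_iff]
        have hbase : ∀ m ∈ M, m * ((y : G)⁻¹ * w) = ((y : G)⁻¹ * w) * m := by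
          intro m hm
          have h10 := hyM m hm
          have h11 := mem_centralizer_singleton_iff.mp (hwM hm)
          have h12 : m * (y : G)⁻¹ = (y : G)⁻¹ * m := by
            rw [mul_inv_eq_iff_eq_mul, mul_assoc, h10, inv_mul_cancel_left]
          rw [← mul_assoc, h12, mul_assoc, h11, mul_assoc]
        intro x hx
        by_cases hxM : x ∈ M
        · exact hbase x hxM
        · have h10 := hbase _ (hcov x hx hxM)
          have h11 : x = x * e⁻¹ * e := by group
          rw [h11, mul_assoc (x * e⁻¹) e, h8, ← mul_assoc, h10]; group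
      have h10 := E.mul_mem y.2 (h.cent h9)
      rw [mul_inv_cancel_left] at h10
      exact hwE h10
  · apply h.ex.ne
    have hze := h.ex.cen e he
    have hzv := h.ex.cen v hvE
    have h5 : v * e = z * (e * v) := by rw [h4, ← mul_assoc, h.ex.sq, one_mul]
    have h6 : (e * v) * (e * v) = z * (e * e) * (v * v) := by
      have : (e * v) * (e * v) = e * (v * e) * v := by group
      rw [this, h5]
      have : e * (z * (e * v)) * v = (e * z) * (e * v * v) := by group
      rw [this, hze]; group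
    rw [h6, hvv, mul_one] at h3
    exact mul_eq_right.mp h3

end Cfsg.Agent.Lib.CocExt
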