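import Mathlib
import Cfsg.Agent.Lib.CocExt

/-!
Transfer in groups with an extraspecial `O_2(C(z))`, second part (helper47).
-/

set_option autoImplicit false

namespace Cfsg.Agent.Lib.CocExt

open Subgroup Cfsg Cfsg.Agent.Lib Cfsg.Agent.Lib.LocBase Cfsg.Agent.Lib.Yoshida Cfsg.Agent.Lib.CocTr Cfsg.Agent.Lib.FrakM
open scoped commutatorElement

variable {G : Type*} [Group G] {E : Subgroup G} {z : G}

/-- S3300 -/
theorem Ctx.thm3 [Finite G] (h : Ctx E z) (hres : pResidual 2 G = ⊤) (hcard : 32 < Nat.card E)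
    (hcl : ∀ g : G, g * z * g⁻¹ ∈ E → g * z * g⁻¹ = z)
    {A : Type*} [CommGroup A] (hA : ∀ a : A, a ^ 2 = 1) (φ : ↥(centralizer ({z} : Set G)) →* A)
    {P : Subgroup G} (hP : IsPGroup 2 P) (hEP : E ≤ P) (hPH : P ≤ centralizer ({z} : Set G)) {u : G} (hu : u ∈ P) :
    fx φ u = 1 := by
  by_contra hne
  have : Fintype (G ⧸ centralizer ({z} : Set G)) := Fintype.ofFinite _
  have htot : ∀ g, tot φ g = 1 := hom_trivial (k := 1) hres (by simpa using hA) (tot φ)
  obtain ⟨x₀, hx₀, hmu⟩ := exists_bad φ htot hPH hu hne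
  obtain ⟨Y, R, e, he, hEY, hYP, hRY, hn, hi, heR, hTR, hMi, hREY, hTE⟩ := h.decomp hP hEP hPH hx₀
  set w := x₀ * z * x₀⁻¹ with hw
  set T := P ⊓ centralizer ({w} : Set G) with hT
  set M := R ⊓ E with hM
  set c := cc φ with hc
  have hcoc : IsCoc c := cc_isCoc φ
  set X₀ : G ⧸ centralizer ({z} : Set G) := (x₀ : G ⧸ centralizer ({z} : Set G)) with hX₀
  have hRP : R ≤ P := hRY.trans hYP
  have hRH : R ≤ centralizer ({z} : Set G) := hRP.trans hPH
  have hME : M ≤ E := inf_le_right
  have hcM : Nat.card M * 2 = Nat.card E := by rw [← hMi]; exact card_mul_relIndex inf_le_right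
  have hst : ∀ y ∈ P, y • X₀ = X₀ → y ∈ T := by
    intro y hy hyx
    exact ⟨hy, fix_iff.mp hyx⟩
  -- `M` is not contained in `T`
  have hMT : ¬ M ≤ T := by
    intro hle
    refine h.excl hME hMi (h.nonab hME (by nlinarith)) (w := w) ?_ ?_ (hle.trans inf_le_right)
    · have : w * w = x₀ * (z * z) * x₀⁻¹ := by rw [hw]; group
      rw [this, h.ex.sq]; group
    · intro hwE
      exact Ctx.ne hx₀ (hcl x₀ hwE)
  have hlt : T < R := by
    refine lt_of_le_of_ne hTR ?_
    intro he
    exact hMT (he ▸ inf_le_left)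
  obtain ⟨R₂, hTR₂, hR₂R, hn₂, hi₂⟩ := exists_two_below (hP.to_le hRP) hlt
  have hRTM : R ≤ T ⊔ M := by
    intro r hr
    have h1 : r ∈ T ⊔ E := by rw [hTE]; exact hRY hr
    rw [sup_comm] at h1
    obtain ⟨e', he', t, ht, rfl⟩ := exists_mul_of_mem_sup_of_le (((inf_le_left : T ≤ P).trans hPH).trans h.nE) h1
    rw [sup_comm]
    refine mul_mem_sup ⟨?_, he'⟩ ht
    have := R.mul_mem hr (R.inv_mem (hTR ht))
    rwa [mul_inv_cancel_right] at this
  have hMR₂ : ¬ M ≤ R₂ := by
    intro h1
    have : R ≤ R₂ := hRTM.trans (sup_le hTR₂ h1)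
    rw [Subgroup.relIndex_eq_one.mpr this] at hi₂
    omega
  obtain ⟨e₂, he₂, he₂R⟩ := SetLike.not_le_iff_exists.mp hMR₂
  have hMn : R ≤ normalizer (M : Set G) := le_normalizer_inf le_normalizer (hRH.trans h.nE)
  have hR₂M : R₂ ⊔ M = R := le_antisymm (sup_le hR₂R inf_le_left) (hRTM.trans (sup_le_sup_right hTR₂ M))
  have hM₂i : R₂.relIndex M = 2 := by
    rw [← relIndex_sup_eq (hR₂R.trans hMn), hR₂M]; exact hi₂
  have hcM₂ : Nat.card ↥(R₂ ⊓ E) * 2 = Nat.card M := by
    have h1 : R₂ ⊓ E = R₂ ⊓ M := by rw [hM, ← inf_assoc, inf_eq_left.mpr hR₂R]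
    rw [h1, ← card_mul_relIndex (inf_le_right : R₂ ⊓ M ≤ M), Subgroup.inf_relIndex_right, hM₂i]
  have hz₂ := h.mu_z hcoc (R := R₂) (by nlinarith) X₀
  have h1₂ := mu_one hcoc R₂ X₀
  have hstR : ∀ y ∈ R, y • X₀ = X₀ → y ∈ R₂ := fun y hy hyx => hTR₂ (hst y (hRP hy) hyx)
  have hstY : ∀ y ∈ Y, y • X₀ = X₀ → y ∈ R := fun y hy hyx => hTR (hst y (hYP hy) hyx)
  have hMtriv : ∀ g ∈ M, mu c R X₀ g = 1 := by
    intro g hg
    by_cases hgR : g ∈ R₂
    · rw [mu_step hcoc hR₂R hn₂ hi₂ he₂.1 he₂R _ hstR hgR,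
        ← mu_mul hcoc _ (conj_mem_of_le_normalizer' hn₂ he₂.1 hgR)]
      rcases h.comm_or hg.2 he₂.2 with h2 | h2 <;> rw [h2]
      exacts [h1₂, hz₂]
    · rw [mu_step' hcoc hR₂R hn₂ hi₂ hg.1 hgR _ hstR]
      rcases h.ex.qsq g hg.2 with h2 | h2 <;> rw [h2]
      exacts [h1₂, hz₂]
  have hidx : (R.subgroupOf Y).index = 2 := hi
  have hYR : ∀ g ∈ R, mu c Y X₀ g = 1 := by
    intro g hg
    rw [mu_step hcoc hRY hn hi (hEY he) heR _ hstY hg]
    have hv := comm_mem_inf h hRH hEY hn hg he
    have e1 : e⁻¹ * g * e = g * (g⁻¹ * (e⁻¹ * g * e)) := by group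
    rw [e1, mu_mul hcoc _ hv.1, hMtriv _ hv, mul_one, ← pow_two]
    exact hA _
  apply hmu
  refine mu_trivial_up hcoc hP _ _ Y rfl hYP (fun y hy hyx => hRY (hTR (hst y hy hyx))) ?_ u hu
  intro g hg
  by_cases hgR : g ∈ R
  · exact hYR g hgR
  · have h3 : g * e⁻¹ ∈ R := by
      have := (Subgroup.mul_mem_iff_of_index_two hidx (a := ⟨g, hg⟩) (b := ⟨e⁻¹, Y.inv_mem (hEY he)⟩)).mpr (by
        constructor
        · intro h3; exact absurd h3 hgR
        · intro h3
          exfalso; apply heR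
          have h4 : e⁻¹ ∈ R := h3
          simpa using R.inv_mem h4)
      exact this
    have e1 : g = (g * e⁻¹) * e := by group
    have h4 : e * e ∈ M := ⟨Subgroup.mul_self_mem_of_index_two hidx ⟨e, hEY he⟩, E.mul_mem he he⟩
    rw [e1, mu_mul hcoc _ (hEY he), hYR _ h3, one_mul, mu_step' hcoc hRY hn hi (hEY he) heR _ hstY, hMtriv _ h4]

theorem card_four {F : Subgroup G} (hF : Nat.card F ≤ 4) {z f x : G} (hz1 : z ≠ 1) (hz : z ∈ F) (hf : f ∈ F)
    (hx : x ∈ F) (hf1 : f ≠ 1) (hfz : f ≠ z) (hx1 : x ≠ 1) (hxz : x ≠ z) (hzz : z * z = 1) [Finite G] :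
    x = f ∨ x = z * f := by
  classical
  by_contra hcon
  push Not at hcon
  have h1 : ({1, z, f, x, z * f} : Finset G) ⊆ (Set.toFinite (F : Set G)).toFinset := by
    intro y hy
    simp only [Finset.mem_insert, Finset.mem_singleton] at hy
    rw [Set.Finite.mem_toFinset]
    rcases hy with rfl | rfl | rfl | rfl | rfl
    exacts [F.one_mem, hz, hf, hx, F.mul_mem hz hf]
  have h2 := Finset.card_le_card h1
  have h3 : ({1, z, f, x, z * f} : Finset G).card = 5 := by
    rw [Finset.card_insert_of_notMem, Finset.card_insert_of_notMem, Finset.card_insert_of_notMem,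
      Finset.card_insert_of_notMem, Finset.card_singleton]
    · rw [Finset.mem_singleton]; exact hcon.2
    · simp only [Finset.mem_insert, Finset.mem_singleton, not_or]
      refine ⟨fun h => hcon.1 h.symm, ?_⟩
      intro h
      exact hz1 (mul_eq_right.mp h.symm)
    · simp only [Finset.mem_insert, Finset.mem_singleton, not_or]
      refine ⟨fun h => hfz h.symm, fun h => hxz h.symm, ?_⟩
      intro h
      exact hf1 (mul_eq_left.mp h.symm)
    · simp only [Finset.mem_insert, Finset.mem_singleton, not_or]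
      refine ⟨fun h => hz1 h.symm, fun h => hf1 h.symm, fun h => hx1 h.symm, ?_⟩
      intro h
      apply hfz
      have : f = z⁻¹ * (z * f) := by group
      rw [this, ← h, mul_one, inv_eq_iff_mul_eq_one]; exact hzz
  have h4 : (Set.toFinite (F : Set G)).toFinset.card = Nat.card F := by
    rw [← Set.ncard_eq_toFinset_card]; exact (Nat.card_coe_set_eq (F : Set G)).symm
  rw [h3, h4] at h2
  omega

theorem Ctx.fx_z (h : Ctx E z) {A : Type*} [CommGroup A] (φ : ↥(centralizer ({z} : Set G)) →* A) : fx φ z = 1 := by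
  obtain ⟨a, ha, b, hb, hab⟩ := h.ex.nonab
  have h1 := (h.ex.comm a ha b hb).resolve_left hab
  have ha' := h.le ha
  have hb' := h.le hb
  have hz' := h.le h.ex.mem
  have h2 := congrArg (fx φ) h1
  rw [fx_mul φ ha' hb', fx_mul φ hz' (mul_mem hb' ha'), fx_mul φ hb' ha', mul_comm (fx φ b)] at h2
  exact mul_eq_right.mp h2.symm

theorem Ctx.fx_sq (h : Ctx E z) {A : Type*} [CommGroup A] (φ : ↥(centralizer ({z} : Set G)) →* A) {u : G}
    (hu : u ∈ E) : fx φ u ^ 2 = 1 := by
  rw [pow_two, ← fx_mul φ (h.le hu) (h.le hu)]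
  rcases h.ex.qsq u hu with h1 | h1 <;> rw [h1]
  · have := fx_mul φ (one_mem (centralizer ({z} : Set G))) (one_mem (centralizer ({z} : Set G)))
    rw [one_mul] at this
    exact mul_eq_right.mp this.symm
  · exact h.fx_z φ

theorem Ctx.four_conj [Finite G] (h : Ctx E z) {F : Subgroup G} (hF : Nat.card F ≤ 4) (hzF : z ∈ F)
    {u : G} (hu : u ∈ centralizer ({z} : Set G)) (huF : u ∈ normalizer (F : Set G)) {f : G} (hf : f ∈ F) :
    u * f * u⁻¹ = f ∨ u * f * u⁻¹ = z * f := by
  have hu' := mem_centralizer_singleton_iff.mp hu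
  by_cases hf1 : f = 1
  · left; rw [hf1]; group
  by_cases hfz : f = z
  · left; rw [hfz, hu']; group
  refine card_four hF h.ex.ne hzF hf
    (conj_mem_of_le_normalizer (K := zpowers u) (by rwa [zpowers_le]) (mem_zpowers u) hf) hf1 hfz ?_ ?_ h.ex.sq
  · intro h1
    apply hf1
    have : f = u⁻¹ * (u * f * u⁻¹) * u := by group
    rw [this, h1]; group
  · intro h1
    apply hfz
    have : f = u⁻¹ * (u * f * u⁻¹) * u := by group
    rw [this, h1, mul_assoc, ← hu']; group

/-- S3301, small case -/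
theorem Ctx.thm2s [Finite G] (h : Ctx E z) (hcard : Nat.card E ≤ 16)
    (hcore : ∀ K : Subgroup G, K ≤ centralizer ({z} : Set G) → centralizer ({z} : Set G) ≤ normalizer (K : Set G) →
      IsPGroup 2 K → K ≤ E)
    {A : Type*} [CommGroup A] (φ : ↥(centralizer ({z} : Set G)) →* A)
    {P : Subgroup G} (hP : IsPGroup 2 P) (hEP : E ≤ P) (hPH : P ≤ centralizer ({z} : Set G)) {u : G} (hu : u ∈ P) :
    fx φ u ^ 2 = 1 := by
  have h2 : Fact (Nat.Prime 2) := ⟨Nat.prime_two⟩
  obtain ⟨n, hn1, hn⟩ := ExtraOrd.exists_card h.ext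
  have hE8 : Nat.card E = 8 := by
    have : n = 1 := by
      by_contra h3
      have h4 : 2 ≤ n := by omega
      have h5 : 2 ^ 5 ≤ 2 ^ (1 + 2 * n) := Nat.pow_le_pow_right (by norm_num) (by omega)
      omega
    rw [hn, this]; norm_num
  have hzH : ∀ g ∈ centralizer ({z} : Set G), g * z = z * g := fun g hg => mem_centralizer_singleton_iff.mp hg
  by_cases hφ : ∃ e₀ ∈ E, fx φ e₀ ≠ 1
  · obtain ⟨e₀, he₀, hne⟩ := hφ
    set F : Subgroup G := E ⊓ (φ.ker).map (centralizer ({z} : Set G)).subtype with hF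
    have hmem : ∀ x, x ∈ F ↔ x ∈ E ∧ fx φ x = 1 := by
      intro x
      rw [hF, mem_inf]
      constructor
      · rintro ⟨hx, y, hy, rfl⟩
        refine ⟨hx, ?_⟩
        have := fx_of_mem φ (show ((centralizer ({z} : Set G)).subtype y) ∈ centralizer ({z} : Set G) from y.2)
        rw [this]
        exact hy
      · rintro ⟨hx, hx1⟩
        rw [fx_of_mem φ (h.le hx)] at hx1
        exact ⟨hx, ⟨x, h.le hx⟩, hx1, rfl⟩
    have hFE : F ≤ E := inf_le_left
    have hFc : Nat.card F ≤ 4 := by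
      have h3 : Nat.card F ∣ Nat.card E := Subgroup.card_dvd_of_le hFE
      rw [hE8] at h3
      have h4 : Nat.card F ≠ 8 := by
        intro h5
        have : F = E := Subgroup.eq_of_le_of_card_ge hFE (by rw [h5, hE8])
        exact hne ((hmem e₀).mp (this ▸ he₀)).2
      have h5 : Nat.card F ≤ 8 := Nat.le_of_dvd (by norm_num) h3
      interval_cases hc : Nat.card F <;> omega
    have hzF : z ∈ F := (hmem z).mpr ⟨h.ex.mem, h.fx_z φ⟩
    have hHE := h.nE
    have hHF : centralizer ({z} : Set G) ≤ normalizer (F : Set G) := by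
      intro g hg
      apply mem_normalizer_of_map_conj_le
      rintro _ ⟨x, hx, rfl⟩
      have hx' := (hmem x).mp hx
      show g * x * g⁻¹ ∈ F
      rw [hmem]
      refine ⟨conj_mem_of_le_normalizer hHE hg hx'.1, ?_⟩
      have := fx_conj φ (inv_mem hg) x
      rw [inv_inv] at this
      rw [this]; exact hx'.2
    have h3 : pRes 2 (centralizer ({z} : Set G)) ≤ centralizer (F : Set G) := by
      refine pRes_le_centralizer_of_chain (h.ex.isP.to_le hFE) hHF (Q := zpowers z) ?_ ?_
      · rw [commutator_le]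
        intro f hf g hg
        have hg' := pRes_le _ _ hg
        have h4 : ⁅f, g⁆ = f * (g * f * g⁻¹)⁻¹ := by rw [commutatorElement_def]; group
        rw [h4]
        rcases h.four_conj hFc hzF hg' (hHF hg') hf with h5 | h5 <;> rw [h5]
        · rw [mul_inv_cancel]; exact one_mem _
        · rw [mul_inv_rev, mul_inv_cancel_left]
          exact inv_mem (mem_zpowers z)
      · refine (pRes_le _ _).trans ?_
        intro g hg
        rw [mem_centralizer_iff]
        rintro _ ⟨k, rfl⟩
        exact (Commute.zpow_right (hzH g hg) k).eq.symm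
    have h4 : pRes 2 (centralizer ({z} : Set G)) ≤ centralizer (E : Set G) := by
      refine pRes_le_centralizer_of_chain h.ex.isP hHE (Q := F) ?_ h3
      rw [commutator_le]
      intro x hx g hg
      have hg' := pRes_le _ _ hg
      have h5 : ⁅x, g⁆ = x * (g * x⁻¹ * g⁻¹) := by rw [commutatorElement_def]; group
      rw [h5, hmem]
      have h6 := conj_mem_of_le_normalizer hHE hg' (E.inv_mem hx)
      refine ⟨E.mul_mem hx h6, ?_⟩
      rw [fx_mul φ (h.le hx) (h.le h6)]
      have h7 := fx_conj φ (inv_mem hg') x⁻¹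
      rw [inv_inv] at h7
      rw [h7, fx_inv φ (h.le hx), mul_inv_cancel]
    have h5 : pRes 2 (centralizer ({z} : Set G)) = ⊥ := by
      rw [← pRes_pRes]
      exact isPGroup_iff_pRes_eq_bot.mp (h.ex.isP.to_le (h4.trans h.cent))
    have h6 := hcore _ le_rfl le_normalizer (isPGroup_iff_pRes_eq_bot.mpr h5)
    exact h.fx_sq φ (h6 (hPH hu))
  · push Not at hφ
    -- a normal subgroup of order four
    have hEn : (E.subgroupOf P).Normal := normal_subgroupOf_of_le_normalizer (hPH.trans h.nE)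
    obtain ⟨L, hLn, hLE, hLc⟩ := PGroupOdd.exists_normal_card' hP hEn (k := 2) (by
      rw [Nat.card_congr (subgroupOfEquivOfLe hEP).toEquiv, hE8]; norm_num)
    set F := L.map P.subtype with hF
    have hFP : F ≤ P := map_subtype_le L
    have hFE : F ≤ E := by
      have := Subgroup.map_mono (f := P.subtype) hLE
      rwa [map_subgroupOf_eq_of_le hEP] at this
    have hFc : Nat.card F = 4 := by
      rw [hF, Nat.card_congr (L.equivMapOfInjective P.subtype P.subtype_injective).toEquiv.symm, hLc]; norm_num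
    have hPF : P ≤ normalizer (F : Set G) := by
      have e : F.subgroupOf P = L := Subgroup.comap_map_eq_self_of_injective P.subtype_injective L
      have : (F.subgroupOf P).Normal := by rw [e]; exact hLn
      exact le_normalizer_of_normal_subgroupOf hFP
    have hzF : z ∈ F := by
      by_contra hz
      obtain ⟨f, hf, hf1⟩ : ∃ f ∈ F, f ≠ 1 := by
        by_contra hcon
        push Not at hcon
        have : F = ⊥ := (Subgroup.eq_bot_iff_forall _).mpr hcon
        rw [this, Subgroup.card_bot] at hFc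
        omega
      have hfz : f ≠ z := fun h3 => hz (h3 ▸ hf)
      obtain ⟨q, hq, hqf⟩ := h.ex.exists_conj (hFE hf) hf1 hfz
      have h3 : z * f ∈ F := by rw [← hqf]; exact conj_mem_of_le_normalizer hPF (hEP hq) hf
      have h4 := F.mul_mem h3 (F.inv_mem hf)
      rw [mul_inv_cancel_right] at h4
      exact hz h4
    have hidx : (F.subgroupOf E).index = 2 := by
      have h3 := card_mul_relIndex hFE
      rw [hFc, hE8] at h3
      have : F.relIndex E = 2 := by omega
      exact this
    have huH := hPH hu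
    have huu : u * u ∈ E := by
      apply h.mem_of_trivial
      · exact h.nE (mul_mem huH huH)
      · intro x hx
        have hux : u * x * u⁻¹ ∈ E := conj_mem_of_le_normalizer h.nE huH hx
        have hf : u * x * u⁻¹ * x⁻¹ ∈ F := by
          have := (Subgroup.mul_mem_iff_of_index_two hidx (a := ⟨_, hux⟩) (b := ⟨x⁻¹, E.inv_mem hx⟩)).mpr (by
            rw [mem_subgroupOf, mem_subgroupOf]
            constructor
            · intro h3
              have h3' : u * x * u⁻¹ ∈ F := h3
              have h4 := conj_mem_of_le_normalizer' hPF hu h3'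
              have h5 : u⁻¹ * (u * x * u⁻¹) * u = x := by group
              rw [h5] at h4
              exact F.inv_mem h4
            · intro h3
              have h3' : x⁻¹ ∈ F := h3
              exact conj_mem_of_le_normalizer hPF hu (by simpa using F.inv_mem h3'))
          exact this
        obtain ⟨f, hfdef⟩ : ∃ f, f = u * x * u⁻¹ * x⁻¹ := ⟨_, rfl⟩
        rw [← hfdef] at hf
        have h3 : u * x * u⁻¹ = f * x := by rw [hfdef]; group
        have h4 : u * u * x * (u * u)⁻¹ * x⁻¹ = (u * f * u⁻¹) * f := by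
          have : u * u * x * (u * u)⁻¹ * x⁻¹ = u * (u * x * u⁻¹) * u⁻¹ * x⁻¹ := by group
          rw [this, h3]
          have : u * (f * x) * u⁻¹ * x⁻¹ = (u * f * u⁻¹) * (u * x * u⁻¹) * x⁻¹ := by group
          rw [this, h3]; group
        rw [h4]
        rcases h.four_conj hFc.le hzF huH (hPF hu) hf with h5 | h5 <;> rw [h5]
        · exact h.ex.qsq f (hFE hf)
        · rw [mul_assoc]
          rcases h.ex.qsq f (hFE hf) with h6 | h6 <;> rw [h6]
          · right; rw [mul_one]
          · left; exact h.ex.sq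
    rw [pow_two, ← fx_mul φ huH huH]
    exact hφ _ huu

end Cfsg.Agent.Lib.CocExt
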