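import Mathlib
import Cfsg.Agent.Lib.CocExt2

/-!
Transfer in groups with an extraspecial `O_2(C(z))`, third part (helper47).
-/

set_option autoImplicit false

namespace Cfsg.Agent.Lib.CocExt

open Subgroup Cfsg Cfsg.Agent.Lib Cfsg.Agent.Lib.LocBase Cfsg.Agent.Lib.Yoshida Cfsg.Agent.Lib.CocTr Cfsg.Agent.Lib.FrakM
open scoped commutatorElement

variable {G : Type*} [Group G] {E : Subgroup G} {z : G}

/-- the subgroup of `m`-th powers of the abelianization -/
abbrev powR (H : Type*) [Group H] (m : ℕ) : Subgroup (Abelianization H) :=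
  (powMonoidHom m : Abelianization H →* Abelianization H).range

/-- the abelianization modulo `m`-th powers -/
abbrev AbM (H : Type*) [Group H] (m : ℕ) := Abelianization H ⧸ powR H m

theorem abM_pow {H : Type*} [Group H] (m : ℕ) (a : AbM H m) : a ^ m = 1 := by
  obtain ⟨b, rfl⟩ := QuotientGroup.mk_surjective a
  rw [← QuotientGroup.mk_pow, QuotientGroup.eq_one_iff]
  exact ⟨b, rfl⟩

/-- the projection -/
def toAbM (H : Type*) [Group H] (m : ℕ) : H →* AbM H m := (QuotientGroup.mk' _).comp Abelianization.of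

theorem toAbM_eq_one {H : Type*} [Group H] {m : ℕ} {h : H} (hh : toAbM H m h = 1) :
    ∃ k : H, Abelianization.of h = Abelianization.of k ^ m := by
  have h1 : (Abelianization.of h) ∈ powR H m := by
    rw [← QuotientGroup.eq_one_iff]; exact hh
  obtain ⟨b, hb⟩ := h1
  obtain ⟨k, rfl⟩ := QuotientGroup.mk_surjective b
  exact ⟨k, hb.symm⟩

theorem mem_of_toAbM {H : Type*} [Group H] {K : Subgroup H} (hK : K.index = 2) {h : H} (hh : toAbM H 2 h = 1) :
    h ∈ K := by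
  obtain ⟨k, hk⟩ := toAbM_eq_one hh
  have hcomm : commutator H ≤ K := by
    rw [_root_.commutator_def, commutator_le]
    intro a _ b _
    rw [commutatorElement_def, mul_mem_iff_of_index_two hK, mul_mem_iff_of_index_two hK, mul_mem_iff_of_index_two hK,
      inv_mem_iff, inv_mem_iff]
    tauto
  rw [← map_pow] at hk
  have h1 : h * (k ^ 2)⁻¹ ∈ commutator H := by
    rw [← Abelianization.ker_of, MonoidHom.mem_ker, map_mul, map_inv, hk, mul_inv_cancel]
  have h2 := K.mul_mem (hcomm h1) (sq_mem_of_index_two hK k)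
  rwa [inv_mul_cancel_right] at h2

theorem exists_conj_mem [Finite G] {H : Subgroup G} {P : Subgroup G} (hP : IsSyl 2 P H) {h : ↥H}
    (hh : IsPGroup 2 (zpowers (h : G))) : ∃ x : G, ∃ hx : x ∈ P, Abelianization.of h = Abelianization.of ⟨x, hP.le hx⟩ := by
  have h2 : Fact (Nat.Prime 2) := ⟨Nat.prime_two⟩
  obtain ⟨g, hg, hle⟩ := hP.exists_conj_le hh (by rw [zpowers_le]; exact h.2)
  rw [MonoidHom.map_zpowers] at hle
  have h1 : g * h * g⁻¹ ∈ P := hle (mem_zpowers _)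
  refine ⟨g * h * g⁻¹, h1, ?_⟩
  have e : (⟨g * h * g⁻¹, hP.le h1⟩ : ↥H) = ⟨g, hg⟩ * h * ⟨g, hg⟩⁻¹ := by apply Subtype.ext; rfl
  rw [e, map_mul, map_mul, map_inv, mul_comm, inv_mul_cancel_left]

theorem isPGroup_zpowers_pow [Finite G] (x : G) : ∃ m : ℕ, ¬ 2 ∣ m ∧ IsPGroup 2 (zpowers (x ^ m)) := by
  have h2 : Fact (Nat.Prime 2) := ⟨Nat.prime_two⟩
  obtain ⟨a, m, hm, hord⟩ := Nat.exists_eq_pow_mul_and_not_dvd (orderOf_pos x).ne' 2 (by norm_num)
  refine ⟨m, hm, ?_⟩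
  rw [IsPGroup.iff_card, Nat.card_zpowers]
  refine ⟨a, ?_⟩
  rw [orderOf_pow, hord, Nat.gcd_eq_right (Dvd.intro_left _ rfl)]
  exact Nat.mul_div_cancel _ (Nat.pos_of_ne_zero (by rintro rfl; exact hm (dvd_zero 2)))

theorem exponent_two [Finite G] {H P : Subgroup G} (hP : IsSyl 2 P H)
    (h4 : ∀ (x : G) (hx : x ∈ P), ∃ k : ↥H, Abelianization.of (⟨x, hP.le hx⟩ : ↥H) ^ 2 = Abelianization.of k ^ 4) :
    ∀ q : Abelianization ↥H, (∃ k : ℕ, orderOf q = 2 ^ k) → q ^ 2 = 1 := by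
  have h2 : Fact (Nat.Prime 2) := ⟨Nat.prime_two⟩
  -- it is enough to treat `P`
  suffices hs : ∀ (x : G) (hx : x ∈ P), Abelianization.of (⟨x, hP.le hx⟩ : ↥H) ^ 2 = 1 by
    rintro q ⟨k, hk⟩
    obtain ⟨h, rfl⟩ := QuotientGroup.mk_surjective q
    obtain ⟨m, hm, hmp⟩ := isPGroup_zpowers_pow (h : G)
    obtain ⟨x, hx, hxe⟩ := exists_conj_mem hP (h := h ^ m) (by push_cast; exact hmp)
    have h1 : (Abelianization.of h ^ m) ^ 2 = 1 := by
      rw [← map_pow, hxe]; exact hs x hx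
    have h3 : (Abelianization.of h ^ 2) ^ m = 1 := by rw [← pow_mul, mul_comm, pow_mul]; exact h1
    have h5 : orderOf (Abelianization.of h ^ 2) ∣ m := orderOf_dvd_of_pow_eq_one h3
    have h6 : orderOf (Abelianization.of h ^ 2) ∣ 2 ^ k := by rw [← hk]; exact orderOf_pow_dvd 2
    have h7 : orderOf (Abelianization.of h ^ 2) ∣ Nat.gcd m (2 ^ k) := Nat.dvd_gcd h5 h6
    have h8 : Nat.gcd m (2 ^ k) = 1 :=
      Nat.Coprime.pow_right k (((Nat.Prime.coprime_iff_not_dvd Nat.prime_two).mpr hm).symm)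
    rw [h8, Nat.dvd_one] at h7
    exact orderOf_eq_one_iff.mp h7
  by_contra hcon
  push Not at hcon
  classical
  -- choose the largest order
  obtain ⟨x, ⟨hx, hx2⟩, hmax⟩ := Set.exists_max_image {x : G | ∃ hx : x ∈ P, Abelianization.of (⟨x, hP.le hx⟩ : ↥H) ^ 2 ≠ 1}
    (fun x => if hx : x ∈ P then orderOf (Abelianization.of (⟨x, hP.le hx⟩ : ↥H)) else 0) (Set.toFinite _)
    (by obtain ⟨x, hx, h⟩ := hcon; exact ⟨x, hx, h⟩)
  set q := Abelianization.of (⟨x, hP.le hx⟩ : ↥H) with hq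
  have hord : ∀ (y : G) (hy : y ∈ P), ∃ e, orderOf (Abelianization.of (⟨y, hP.le hy⟩ : ↥H)) = 2 ^ e := by
    intro y hy
    obtain ⟨e, he⟩ := hP.pgroup ⟨y, hy⟩
    have h1 : (⟨y, hP.le hy⟩ : ↥H) ^ 2 ^ e = 1 := by
      apply Subtype.ext
      have := congrArg Subtype.val he
      simpa using this
    have h3 : orderOf (Abelianization.of (⟨y, hP.le hy⟩ : ↥H)) ∣ 2 ^ e := by
      apply orderOf_dvd_of_pow_eq_one
      rw [← map_pow, h1, map_one]
    obtain ⟨i, _, hi⟩ := (Nat.dvd_prime_pow Nat.prime_two).mp h3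
    exact ⟨i, hi⟩
  obtain ⟨e, he⟩ := hord x hx
  rw [← hq] at he
  have he2 : 2 ≤ e := by
    by_contra h1
    apply hx2
    apply orderOf_dvd_iff_pow_eq_one.mp
    rw [he]
    interval_cases e <;> norm_num
  obtain ⟨k, hk⟩ := h4 x hx
  rw [← hq] at hk
  obtain ⟨m, hm, hmp⟩ := isPGroup_zpowers_pow (k : G)
  obtain ⟨y, hy, hye⟩ := exists_conj_mem hP (h := k ^ m) (by push_cast; exact hmp)
  -- order of `y` divides `2 ^ e`
  have hyo : (Abelianization.of k ^ m) ^ (2 ^ e) = 1 := by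
    rw [← map_pow Abelianization.of k m, hye]
    obtain ⟨i, hi⟩ := hord y hy
    apply orderOf_dvd_iff_pow_eq_one.mp
    rw [hi]
    by_cases hy2 : Abelianization.of (⟨y, hP.le hy⟩ : ↥H) ^ 2 = 1
    · rw [← hi]
      exact (orderOf_dvd_of_pow_eq_one hy2).trans (dvd_pow_self 2 (by omega))
    · have h1 := hmax y ⟨hy, hy2⟩
      rw [dif_pos hx, dif_pos hy, ← hq, he, hi] at h1
      exact pow_dvd_pow 2 ((Nat.pow_le_pow_iff_right one_lt_two).mp h1)
  have h1 : q ^ (2 ^ (e - 1) * m) = 1 := by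
    obtain ⟨f, rfl⟩ := Nat.exists_eq_add_of_le he2
    have e1 : 2 ^ (2 + f - 1) * m = 2 * (2 ^ f * m) := by
      have : 2 + f - 1 = f + 1 := by omega
      rw [this, pow_succ]; ring
    rw [e1, pow_mul, hk, ← pow_mul]
    have e2 : 4 * (2 ^ f * m) = m * 2 ^ (2 + f) := by rw [pow_add]; ring
    rw [e2, pow_mul]
    exact hyo
  have h3 := orderOf_dvd_of_pow_eq_one h1
  rw [he] at h3
  have h5 : 2 ^ e = 2 ^ (e - 1) * 2 := by rw [← pow_succ]; congr 1; omega
  rw [h5] at h3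
  exact hm (Nat.dvd_of_mul_dvd_mul_left (pow_pos two_pos _) h3)

end Cfsg.Agent.Lib.CocExt
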