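import Mathlib

/-! A combinatorial lemma used for groups with 22 Sylow 3-subgroups: a partial linear space with 22 points,
4 points on each line and 4 lines through each point and further properties does not exist. -/

set_option autoImplicit false

namespace Cfsg.Agent.Lib.Comb22

open Finset

/-- There is no strongly regular graph with parameters `(22, 12, 8, 4)`, in terms of neighbourhoods. -/
theorem no_srg {Ω : Type*} [Fintype Ω] [DecidableEq Ω] (hΩ : Fintype.card Ω = 22)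
    (T : Ω → Finset Ω) (hsymm : ∀ α γ, γ ∈ T α → α ∈ T γ) (hirr : ∀ α, α ∉ T α)
    (hk : ∀ α, (T α).card = 12) (hl : ∀ α γ, γ ∈ T α → (T α ∩ T γ).card = 8)
    (hm : ∀ α γ, γ ≠ α → γ ∉ T α → (T α ∩ T γ).card = 4) : False := by
  let A : Matrix Ω Ω ℚ := Matrix.of fun α γ => if γ ∈ T α then 1 else 0
  let J : Matrix Ω Ω ℚ := Matrix.of fun _ _ => 1
  have hAA : ∀ α γ, (A * A) α γ = ((T α ∩ T γ).card : ℚ) := by
    intro α γ
    rw [Matrix.mul_apply]
    simp only [A, Matrix.of_apply]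
    have : ∀ δ : Ω, ((if δ ∈ T α then (1 : ℚ) else 0) * (if γ ∈ T δ then (1 : ℚ) else 0)) =
        if δ ∈ T α ∩ T γ then 1 else 0 := by
      intro δ
      by_cases h1 : δ ∈ T α
      · by_cases h2 : γ ∈ T δ
        · rw [if_pos h1, if_pos h2, if_pos (mem_inter.2 ⟨h1, hsymm _ _ h2⟩), mul_one]
        · rw [if_pos h1, if_neg h2, if_neg (fun h => h2 (hsymm _ _ (mem_inter.1 h).2)), mul_zero]
      · rw [if_neg h1, if_neg (fun h => h1 (mem_inter.1 h).1), zero_mul]
    rw [Finset.sum_congr rfl (fun δ _ => this δ), Finset.sum_boole]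
    congr 2
    ext δ
    simp
  have key : (A - (2 : ℚ) • (1 : Matrix Ω Ω ℚ)) * (A - (2 : ℚ) • (1 : Matrix Ω Ω ℚ)) =
      (12 : ℚ) • (1 + (1 / 3 : ℚ) • J) := by
    have h1 : (A - (2 : ℚ) • (1 : Matrix Ω Ω ℚ)) * (A - (2 : ℚ) • (1 : Matrix Ω Ω ℚ)) =
        A * A - (4 : ℚ) • A + (4 : ℚ) • 1 := by
      rw [sub_mul, mul_sub, mul_sub]
      simp only [mul_smul_comm, smul_mul_assoc, mul_one, one_mul, smul_smul]
      module
    rw [h1]
    ext α γ
    simp only [Matrix.add_apply, Matrix.sub_apply, Matrix.smul_apply, hAA, smul_eq_mul, J, Matrix.of_apply, A]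
    by_cases h2 : α = γ
    · subst h2
      rw [inter_self, hk, if_neg (hirr α), Matrix.one_apply_eq]
      norm_num
    · rw [Matrix.one_apply_ne h2]
      by_cases h3 : γ ∈ T α
      · rw [if_pos h3, hl α γ h3]; norm_num
      · rw [if_neg h3, hm α γ (Ne.symm h2) h3]; norm_num
  have hdet : (A - (2 : ℚ) • (1 : Matrix Ω Ω ℚ)).det * (A - (2 : ℚ) • (1 : Matrix Ω Ω ℚ)).det =
      12 ^ 22 * (1 + 22 / 3) := by
    rw [← Matrix.det_mul, key, Matrix.det_smul, hΩ]
    congr 1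
    have h2 : (1 / 3 : ℚ) • J = Matrix.replicateCol Unit (fun _ : Ω => (1 : ℚ)) *
        Matrix.replicateRow Unit (fun _ : Ω => (1 / 3 : ℚ)) := by
      ext α γ
      simp [J, Matrix.mul_apply]
    rw [h2, Matrix.det_one_add_replicateCol_mul_replicateRow]
    simp [dotProduct, hΩ]
    norm_num
  set z := (A - (2 : ℚ) • (1 : Matrix Ω Ω ℚ)).det
  have hsq : IsSquare (3 : ℚ) := by
    refine ⟨z / (12 ^ 10 * 20), ?_⟩
    rw [div_mul_div_comm, hdet]
    norm_num
  rw [Rat.isSquare_iff] at hsq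
  have h3 : ¬ IsSquare (3 : ℤ) := by
    rintro ⟨w, hw⟩
    have h4 : w ≤ 1 := by nlinarith
    have h5 : -1 ≤ w := by nlinarith
    interval_cases w <;> omega
  exact h3 (by simpa using hsq.1)

section comb

variable {Ω : Type*} [Fintype Ω] [DecidableEq Ω] {ℒ : Finset (Finset Ω)} {T : Ω → Finset Ω}

/-- counting points of a set collinear with a point -/
theorem card_inter_T (h2 : ∀ L ∈ ℒ, ∀ L' ∈ ℒ, ∀ α γ, α ≠ γ → α ∈ L → γ ∈ L → α ∈ L' → γ ∈ L' → L = L')
    (hT : ∀ α γ, γ ∈ T α ↔ γ ≠ α ∧ ∃ L ∈ ℒ, α ∈ L ∧ γ ∈ L) (δ : Ω) (S : Finset Ω) :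
    (T δ ∩ S).card = ∑ L ∈ ℒ.filter (δ ∈ ·), (L.erase δ ∩ S).card := by
  rw [← Finset.card_biUnion]
  · congr 1
    ext γ
    simp only [mem_inter, mem_biUnion, mem_filter, mem_erase, hT]
    constructor
    · rintro ⟨⟨h, L, hL, h3, h4⟩, h5⟩
      exact ⟨L, ⟨hL, h3⟩, ⟨h, h4⟩, h5⟩
    · rintro ⟨L, ⟨hL, h3⟩, ⟨h, h4⟩, h5⟩
      exact ⟨⟨h, L, hL, h3, h4⟩, h5⟩
  · intro L hL L' hL' hne
    rw [Function.onFun, disjoint_left]
    intro γ hγ hγ'
    simp only [coe_filter, Set.mem_setOf_eq] at hL hL'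
    rw [mem_inter, mem_erase] at hγ hγ'
    exact hne (h2 L hL.1 L' hL'.1 δ γ (Ne.symm hγ.1.1) hL.2 hγ.1.2 hL'.2 hγ'.1.2)

/-- double counting of incidences -/
theorem double_count (𝒮 : Finset (Finset Ω)) (S : Finset Ω) :
    ∑ γ ∈ S, (𝒮.filter (γ ∈ ·)).card = ∑ L ∈ 𝒮, (L ∩ S).card := by
  have h := Finset.sum_card_bipartiteAbove_eq_sum_card_bipartiteBelow (s := S) (t := 𝒮)
    (fun (γ : Ω) (L : Finset Ω) => γ ∈ L)
  refine Eq.trans h (sum_congr rfl fun L _ => ?_)
  congr 1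
  ext γ
  simp [bipartiteBelow, and_comm]

/-- The combinatorial lemma. -/
theorem comb22 (hΩ : Fintype.card Ω = 22)
    (h1 : ∀ L ∈ ℒ, L.card = 4)
    (h2 : ∀ L ∈ ℒ, ∀ L' ∈ ℒ, ∀ α γ, α ≠ γ → α ∈ L → γ ∈ L → α ∈ L' → γ ∈ L' → L = L')
    (h3 : ∀ α, (ℒ.filter (α ∈ ·)).card = 4)
    (hT : ∀ α γ, γ ∈ T α ↔ γ ≠ α ∧ ∃ L ∈ ℒ, α ∈ L ∧ γ ∈ L)
    (h4 : ∀ α, ∀ L ∈ ℒ, α ∉ L → (L ∩ T α).card = 0 ∨ (L ∩ T α).card = 1 ∨ (L ∩ T α).card = 4)
    (h5 : ∀ α γ, γ ∈ T α → insert γ (T γ) ≠ insert α (T α)) : False := by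
  have hsymm : ∀ α γ, γ ∈ T α → α ∈ T γ := by
    intro α γ h
    obtain ⟨h6, L, hL, h7, h8⟩ := (hT _ _).1 h
    exact (hT _ _).2 ⟨h6.symm, L, hL, h8, h7⟩
  have hirr : ∀ α, α ∉ T α := fun α h => ((hT _ _).1 h).1 rfl
  -- valency
  have hk : ∀ α, (T α).card = 12 := by
    intro α
    have h6 := card_inter_T h2 hT α univ
    rw [inter_univ] at h6
    rw [h6, sum_congr rfl (g := fun _ => 3), sum_const, h3]
    · rfl
    · intro L hL
      rw [mem_filter] at hL
      rw [inter_univ, card_erase_of_mem hL.2, h1 L hL.1]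
  -- number of lines
  have hcL : ℒ.card = 22 := by
    have h6 := double_count ℒ (univ : Finset Ω)
    rw [sum_congr rfl (fun γ _ => h3 γ), sum_const, card_univ, hΩ] at h6
    rw [sum_congr rfl (fun L hL => by rw [inter_univ, h1 L hL] : ∀ L ∈ ℒ, (L ∩ univ).card = 4), sum_const] at h6
    simp only [smul_eq_mul] at h6
    omega
  have hnot : ∀ α, (ℒ.filter (α ∉ ·)).card = 18 := by
    intro α
    have h6 := card_filter_add_card_filter_not (s := ℒ) (fun L => α ∈ L)
    rw [h3, hcL] at h6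
    omega
  -- the lines through `γ` avoiding `α`
  have hthree : ∀ α γ, γ ∈ T α → ((ℒ.filter (α ∉ ·)).filter (γ ∈ ·)).card = 3 := by
    intro α γ hγ
    obtain ⟨h6, L, hL, h7, h8⟩ := (hT _ _).1 hγ
    have h9 : (ℒ.filter (α ∉ ·)).filter (γ ∈ ·) = (ℒ.filter (γ ∈ ·)).erase L := by
      ext M
      simp only [mem_filter, mem_erase]
      constructor
      · rintro ⟨⟨hM, h10⟩, h11⟩
        refine ⟨?_, hM, h11⟩
        rintro rfl
        exact h10 h7
      · rintro ⟨h10, hM, h11⟩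
        refine ⟨⟨hM, ?_⟩, h11⟩
        intro h12
        exact h10 (h2 M hM L hL γ α h6 h11 h12 h8 h7)
    rw [h9, card_erase_of_mem (mem_filter.2 ⟨hL, h8⟩), h3]
  -- fix `α`
  have main : ∀ α, (∀ L ∈ ℒ, α ∉ L → (L ∩ T α).card = 1 ∨ (L ∩ T α).card = 4) ∧
      ∀ γ ∈ T α, (((ℒ.filter (α ∉ ·)).filter (fun L => (L ∩ T α).card = 4)).filter (γ ∈ ·)).card = 2 := by
    intro α
    set 𝒩 := ℒ.filter (α ∉ ·) with h𝒩
    set 𝒜 := 𝒩.filter (fun L => (L ∩ T α).card = 4) with h𝒜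
    have hN : ∀ L ∈ 𝒩, L ∈ ℒ ∧ α ∉ L := fun L hL => by rwa [h𝒩, mem_filter] at hL
    have hA : ∀ L ∈ 𝒜, L ⊆ T α := by
      intro L hL
      rw [h𝒜, mem_filter] at hL
      have h6 : L ∩ T α = L := eq_of_subset_of_card_le inter_subset_left (by rw [hL.2, h1 L (hN L hL.1).1])
      rw [← h6]; exact inter_subset_right
    -- total
    have e1 : ∑ L ∈ 𝒩, (L ∩ T α).card = 36 := by
      rw [← double_count 𝒩 (T α), sum_congr rfl (fun γ hγ => hthree α γ hγ), sum_const, hk]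
      rfl
    have e2 : ∑ γ ∈ T α, (𝒜.filter (γ ∈ ·)).card = 4 * 𝒜.card := by
      rw [double_count 𝒜 (T α), sum_congr rfl (g := fun _ => 4), sum_const, smul_eq_mul, mul_comm]
      intro L hL
      rw [h𝒜, mem_filter] at hL
      exact hL.2
    have e3 : ∀ γ ∈ T α, (𝒜.filter (γ ∈ ·)).card ≤ 2 := by
      intro γ hγ
      by_contra hlt
      have h6 : 𝒜.filter (γ ∈ ·) = 𝒩.filter (γ ∈ ·) := by
        apply eq_of_subset_of_card_le
        · intro L hL
          rw [mem_filter] at hL ⊢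
          exact ⟨(mem_filter.1 hL.1).1, hL.2⟩
        · rw [hthree α γ hγ]; omega
      apply h5 α γ hγ
      apply eq_of_subset_of_card_le
      · intro δ hδ
        rcases mem_insert.1 hδ with rfl | hδ
        · exact mem_insert_of_mem hγ
        · obtain ⟨h7, L, hL, h8, h9⟩ := (hT _ _).1 hδ
          by_cases h10 : α ∈ L
          · by_cases h11 : δ = α
            · rw [h11]; exact mem_insert_self _ _
            · exact mem_insert_of_mem ((hT _ _).2 ⟨h11, L, hL, h10, h9⟩)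
          · have h12 : L ∈ 𝒜.filter (γ ∈ ·) := by
              rw [h6, mem_filter, h𝒩, mem_filter]
              exact ⟨⟨hL, h10⟩, h8⟩
            exact mem_insert_of_mem (hA L (mem_filter.1 h12).1 h9)
      · rw [card_insert_of_notMem (hirr α), card_insert_of_notMem (hirr γ), hk, hk]
    have e4 : ∑ γ ∈ T α, (𝒜.filter (γ ∈ ·)).card ≤ 24 := by
      calc ∑ γ ∈ T α, (𝒜.filter (γ ∈ ·)).card ≤ ∑ γ ∈ T α, 2 := sum_le_sum e3
        _ = 24 := by rw [sum_const, hk]; rfl
    -- split the sum over `𝒩`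
    set ℬ := 𝒩.filter (fun L => (L ∩ T α).card = 1) with hℬ
    set 𝒵 := 𝒩.filter (fun L => (L ∩ T α).card = 0) with h𝒵
    have e5 : ∑ L ∈ 𝒩, (L ∩ T α).card = 4 * 𝒜.card + ℬ.card := by
      have : ∀ L ∈ 𝒩, (L ∩ T α).card = (if (L ∩ T α).card = 4 then 4 else 0) +
          (if (L ∩ T α).card = 1 then 1 else 0) := by
        intro L hL
        rcases h4 α L (hN L hL).1 (hN L hL).2 with h | h | h <;> rw [h] <;> simp
      rw [sum_congr rfl this, sum_add_distrib, ← sum_filter, ← sum_filter, sum_const, sum_const]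
      simp only [smul_eq_mul, mul_one]
      rw [mul_comm]
    have e6 : 𝒩.card = 𝒜.card + ℬ.card + 𝒵.card := by
      have : ∀ L ∈ 𝒩, 1 = (if (L ∩ T α).card = 4 then 1 else 0) +
          (if (L ∩ T α).card = 1 then 1 else 0) + (if (L ∩ T α).card = 0 then 1 else 0) := by
        intro L hL
        rcases h4 α L (hN L hL).1 (hN L hL).2 with h | h | h <;> rw [h] <;> simp
      rw [card_eq_sum_ones, sum_congr rfl this, sum_add_distrib, sum_add_distrib, ← sum_filter, ← sum_filter,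
        ← sum_filter, ← card_eq_sum_ones, ← card_eq_sum_ones, ← card_eq_sum_ones]
    have e7 : 𝒩.card = 18 := hnot α
    have e8 : 𝒜.card = 6 := by omega
    have e9 : 𝒵.card = 0 := by omega
    constructor
    · intro L hL hα
      rcases h4 α L hL hα with h | h | h
      · exfalso
        have : L ∈ 𝒵 := by rw [h𝒵, mem_filter, h𝒩, mem_filter]; exact ⟨⟨hL, hα⟩, h⟩
        rw [card_eq_zero.1 e9] at this
        exact absurd this (notMem_empty _)
      · exact Or.inl h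
      · exact Or.inr h
    · have h6 : ∑ γ ∈ T α, (𝒜.filter (γ ∈ ·)).card = ∑ γ ∈ T α, 2 := by
        rw [e2, e8, sum_const, hk]; rfl
      exact (sum_eq_sum_iff_of_le e3).1 h6
  refine no_srg hΩ T hsymm hirr hk ?_ ?_
  · -- adjacent points
    intro α γ hγ
    obtain ⟨hm1, hm2⟩ := main α
    have h6 := card_inter_T h2 hT γ (T α)
    rw [inter_comm, h6]
    obtain ⟨h7, L, hL, h8, h9⟩ := (hT _ _).1 hγ
    -- the line through `α` and `γ`
    have h10 : ℒ.filter (γ ∈ ·) = insert L ((ℒ.filter (α ∉ ·)).filter (γ ∈ ·)) := by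
      ext M
      simp only [mem_filter, mem_insert]
      constructor
      · rintro ⟨hM, h11⟩
        by_cases h12 : α ∈ M
        · exact Or.inl (h2 M hM L hL γ α h7 h11 h12 h9 h8)
        · exact Or.inr ⟨⟨hM, h12⟩, h11⟩
      · rintro (rfl | ⟨⟨hM, h11⟩, h12⟩)
        · exact ⟨hL, h9⟩
        · exact ⟨hM, h12⟩
    rw [h10, sum_insert]
    · have h11 : (L.erase γ ∩ T α).card = 2 := by
        have : L.erase γ ∩ T α = (L.erase γ).erase α := by
          ext δ
          simp only [mem_inter, mem_erase, hT]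
          constructor
          · rintro ⟨⟨h12, h13⟩, h14, -⟩
            exact ⟨h14, h12, h13⟩
          · rintro ⟨h14, h12, h13⟩
            exact ⟨⟨h12, h13⟩, h14, L, hL, h8, h13⟩
        rw [this, card_erase_of_mem (mem_erase.2 ⟨h7.symm, h8⟩), card_erase_of_mem h9, h1 L hL]
      have h12 : ∑ M ∈ (ℒ.filter (α ∉ ·)).filter (γ ∈ ·), (M.erase γ ∩ T α).card = 6 := by
        have : ∀ M ∈ (ℒ.filter (α ∉ ·)).filter (γ ∈ ·), (M.erase γ ∩ T α).card =
            if (M ∩ T α).card = 4 then 3 else 0 := by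
          intro M hM
          rw [mem_filter, mem_filter] at hM
          have h13 : M.erase γ ∩ T α = (M ∩ T α).erase γ := by
            ext δ; simp only [mem_inter, mem_erase]; tauto
          rw [h13, card_erase_of_mem (mem_inter.2 ⟨hM.2, hγ⟩)]
          rcases hm1 M hM.1.1 hM.1.2 with h | h <;> rw [h] <;> simp
        rw [sum_congr rfl this, ← sum_filter, sum_const]
        have h14 : ((ℒ.filter (α ∉ ·)).filter (γ ∈ ·)).filter (fun M => (M ∩ T α).card = 4) =
            (((ℒ.filter (α ∉ ·)).filter (fun L => (L ∩ T α).card = 4)).filter (γ ∈ ·)) := by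
          ext M; simp only [mem_filter]; tauto
        rw [h14, hm2 γ hγ]
        rfl
      rw [h11, h12]
    · rw [mem_filter, mem_filter]
      rintro ⟨⟨-, h11⟩, -⟩
      exact h11 h8
  · -- nonadjacent points
    intro α δ hδα hδ
    obtain ⟨hm1, -⟩ := main α
    have h6 := card_inter_T h2 hT δ (T α)
    rw [inter_comm, h6, sum_congr rfl (g := fun _ => 1), sum_const, h3]
    · rfl
    · intro L hL
      rw [mem_filter] at hL
      have h7 : α ∉ L := fun h => hδ ((hT _ _).2 ⟨hδα, L, hL.1, h, hL.2⟩)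
      have h8 : L.erase δ ∩ T α = L ∩ T α := by
        ext γ; simp only [mem_inter, mem_erase]
        constructor
        · rintro ⟨⟨-, h⟩, h'⟩; exact ⟨h, h'⟩
        · rintro ⟨h, h'⟩
          exact ⟨⟨by rintro rfl; exact hδ h', h⟩, h'⟩
      rw [h8]
      rcases hm1 L hL.1 h7 with h | h
      · exact h
      · exfalso
        have h9 : L ∩ T α = L := eq_of_subset_of_card_le inter_subset_left (by rw [h, h1 L hL.1])
        apply hδ
        have : δ ∈ L ∩ T α := by rw [h9]; exact hL.2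
        exact (mem_inter.1 this).2

end comb

end Cfsg.Agent.Lib.Comb22
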