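import Cfsg.Agent.Lib.StructConst

set_option autoImplicit false
open Cfsg
open scoped ComplexConjugate

namespace Cfsg.Agent.Lib.CommutatorCount

variable {G : Type*} [Group G] [Fintype G]

open scoped Classical in
/-- Number of pairs `(a,b)` with `a b a⁻¹ b⁻¹ = g`. -/
noncomputable def commCount (g : G) : ℂ :=
  ∑ a : G, ∑ b : G, if a * b * a⁻¹ * b⁻¹ = g then 1 else 0

theorem commCount_isClassFunction : IsClassFunction G (commCount (G := G)) := by
  classical
  intro g h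
  unfold commCount
  refine Fintype.sum_equiv (MulAut.conj h⁻¹).toEquiv _ _ fun a => ?_
  refine Fintype.sum_equiv (MulAut.conj h⁻¹).toEquiv _ _ fun b => ?_
  have h1 : (a * b * a⁻¹ * b⁻¹ = h * g * h⁻¹) ↔
      ((MulAut.conj h⁻¹).toEquiv a * (MulAut.conj h⁻¹).toEquiv b *
        ((MulAut.conj h⁻¹).toEquiv a)⁻¹ * ((MulAut.conj h⁻¹).toEquiv b)⁻¹ = g) := by
    have h2 : (MulAut.conj h⁻¹).toEquiv a * (MulAut.conj h⁻¹).toEquiv b *
        ((MulAut.conj h⁻¹).toEquiv a)⁻¹ * ((MulAut.conj h⁻¹).toEquiv b)⁻¹ =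
        h⁻¹ * (a * b * a⁻¹ * b⁻¹) * h := by
      simp only [MulEquiv.toEquiv_eq_coe, EquivLike.coe_coe, MulAut.conj_apply, inv_inv]
      group
    rw [h2]
    constructor
    · intro h3; rw [h3]; group
    · intro h3; rw [← h3]; group
  exact if_congr h1 rfl rfl

theorem sum_commCount_mul (f : G → ℂ) :
    ∑ g : G, commCount g * f g = ∑ a : G, ∑ b : G, f (a * b * a⁻¹ * b⁻¹) := by
  classical
  unfold commCount
  simp only [Finset.sum_mul]
  rw [Finset.sum_comm]
  refine Finset.sum_congr rfl fun a _ => ?_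
  rw [Finset.sum_comm]
  refine Finset.sum_congr rfl fun b _ => ?_
  simp

theorem sum_character_commutator {χ : G → ℂ} (hχ : IsIrrCharacter G χ) :
    ∑ a : G, ∑ b : G, χ (a * b * a⁻¹ * b⁻¹) = (Nat.card G : ℂ) ^ 2 / χ 1 := by
  have h1 : ∀ a : G, ∑ b : G, χ (a * b * a⁻¹ * b⁻¹) = Nat.card G * χ a * χ a⁻¹ / χ 1 := by
    intro a
    rw [← StructConst.sum_conj_mul hχ]
    refine Finset.sum_congr rfl fun b _ => ?_
    congr 1
    group
  simp only [h1]
  have h2 : ∑ a : G, χ a * χ a⁻¹ = Nat.card G := by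
    have h3 := hχ.classInner_self
    unfold classInner at h3
    have hG : (Nat.card G : ℂ) ≠ 0 := Nat.cast_ne_zero.mpr Nat.card_pos.ne'
    rw [inv_mul_eq_iff_eq_mul₀ hG, mul_one] at h3
    rw [← h3]
    exact Finset.sum_congr rfl fun g _ => by rw [hχ.inv]
  rw [← Finset.sum_div]
  simp only [mul_assoc]
  rw [← Finset.mul_sum, h2, sq]

theorem commCount_eq (g : G) :
    commCount g = (Nat.card G : ℂ) * ∑ χ : IrrCharacter G, (χ : G → ℂ) g / (χ : G → ℂ) 1 := by
  have hG : (Nat.card G : ℂ) ≠ 0 := Nat.cast_ne_zero.mpr Nat.card_pos.ne'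
  rw [commCount_isClassFunction.expansion_apply g, Finset.mul_sum]
  refine Finset.sum_congr rfl fun χ _ => ?_
  have h1 : classInner (commCount (G := G)) (χ : G → ℂ) = (Nat.card G : ℂ) / (χ : G → ℂ) 1 := by
    unfold classInner
    rw [sum_commCount_mul (fun g => conj ((χ : G → ℂ) g))]
    have h2 : ∑ a : G, ∑ b : G, conj ((χ : G → ℂ) (a * b * a⁻¹ * b⁻¹)) =
        conj ((Nat.card G : ℂ) ^ 2 / (χ : G → ℂ) 1) := by
      rw [← sum_character_commutator χ.2]
      simp only [map_sum]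
    rw [h2]
    obtain ⟨n, hn, h3⟩ := χ.2.exists_degree
    rw [h3]
    simp only [map_div₀, map_pow, Complex.conj_natCast]
    field_simp
  rw [h1]
  ring

theorem commCount_ne_zero_iff (g : G) :
    commCount g ≠ 0 ↔ ∃ a b : G, g = a * b * a⁻¹ * b⁻¹ := by
  classical
  have h1 : commCount g =
      (((Finset.univ : Finset (G × G)).filter (fun p => p.1 * p.2 * p.1⁻¹ * p.2⁻¹ = g)).card : ℂ) := by
    unfold commCount
    rw [← Fintype.sum_prod_type', Finset.card_filter]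
    push_cast
    rfl
  rw [h1]
  constructor
  · intro h2
    have h3 : ((Finset.univ : Finset (G × G)).filter
        (fun p => p.1 * p.2 * p.1⁻¹ * p.2⁻¹ = g)).card ≠ 0 := by exact_mod_cast h2
    obtain ⟨p, hp⟩ := Finset.card_pos.mp (Nat.pos_of_ne_zero h3)
    exact ⟨p.1, p.2, (Finset.mem_filter.mp hp).2.symm⟩
  · rintro ⟨a, b, hab⟩
    have h3 : 0 < ((Finset.univ : Finset (G × G)).filter
        (fun p => p.1 * p.2 * p.1⁻¹ * p.2⁻¹ = g)).card :=
      Finset.card_pos.mpr ⟨(a, b), Finset.mem_filter.mpr ⟨Finset.mem_univ _, hab.symm⟩⟩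
    exact_mod_cast h3.ne'

theorem isCommutator_iff (g : G) : (∃ a b : G, g = a * b * a⁻¹ * b⁻¹) ↔
    ∑ χ : IrrCharacter G, (χ : G → ℂ) g / (χ : G → ℂ) 1 ≠ 0 := by
  have hG : (Nat.card G : ℂ) ≠ 0 := Nat.cast_ne_zero.mpr Nat.card_pos.ne'
  rw [← commCount_ne_zero_iff, commCount_eq, mul_ne_zero_iff]
  exact ⟨fun h => h.2, fun h => ⟨hG, h⟩⟩

end Cfsg.Agent.Lib.CommutatorCount
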