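import Mathlib
import Cfsg.Agent.Lib.CompLength
import Cfsg.Agent.Lib.MinNormal

/-!
The family of simple factors of a nonabelian minimal normal subgroup, elementwise (helper95).
-/

set_option autoImplicit false

namespace Cfsg.Agent.Lib.CompLengthFam

open Subgroup Cfsg.Agent.Lib.MinNormal Cfsg.Agent.Lib.CompLength

variable {G : Type*} [Group G]

/-- `x` centralises `S`. -/
def Cen (S : Subgroup G) (x : G) : Prop := ∀ y ∈ S, x * y = y * x

theorem Cen.one (S : Subgroup G) : Cen S 1 := fun y _ => by rw [one_mul, mul_one]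

theorem Cen.mul {S : Subgroup G} {x y : G} (hx : Cen S x) (hy : Cen S y) : Cen S (x * y) := fun z hz => by
  rw [mul_assoc, hy z hz, ← mul_assoc, hx z hz, mul_assoc]

theorem Cen.inv {S : Subgroup G} {x : G} (hx : Cen S x) : Cen S x⁻¹ := fun z hz => by
  rw [inv_mul_eq_iff_eq_mul, ← mul_assoc, hx z hz, mul_assoc, mul_inv_cancel, mul_one]

theorem Cen.conj {N S : Subgroup G} (hS : InvBy N S) {n x : G} (hn : n ∈ N) (hx : Cen S x) :
    Cen S (n * x * n⁻¹) := by
  intro z hz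
  have h1 : n⁻¹ * z * n ∈ S := by
    have := hS n⁻¹ (N.inv_mem hn) z hz
    rwa [inv_inv] at this
  have h2 := hx _ h1
  calc n * x * n⁻¹ * z = n * (x * (n⁻¹ * z * n)) * n⁻¹ := by group
    _ = n * ((n⁻¹ * z * n) * x) * n⁻¹ := by rw [h2]
    _ = z * (n * x * n⁻¹) := by group

theorem Cen.conj' {S : Subgroup G} {g x : G} (hx : Cen S x) : Cen (cj g S) (g * x * g⁻¹) := by
  intro z hz
  rw [mem_cj] at hz
  have h2 := hx _ hz
  calc g * x * g⁻¹ * z = g * (x * (g⁻¹ * z * g)) * g⁻¹ := by group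
    _ = g * ((g⁻¹ * z * g) * x) * g⁻¹ := by rw [h2]
    _ = z * (g * x * g⁻¹) := by group

/-- The properties of the family of simple factors of a nonabelian minimal normal subgroup. -/
structure Fam (N : Subgroup G) (F : Finset (Subgroup G)) : Prop where
  minBy : ∀ S ∈ F, MinBy N S
  le : ∀ S ∈ F, S ≤ N
  nab : ∀ S ∈ F, ¬ ∀ x ∈ S, ∀ y ∈ S, x * y = y * x
  comm : ∀ S ∈ F, ∀ S' ∈ F, S ≠ S' → ∀ x ∈ S, Cen S' x
  cz : ∀ S ∈ F, ∀ x ∈ S, Cen S x → x = 1
  dec : ∀ S ∈ F, ∀ n ∈ N, ∃ s ∈ S, Cen S (s⁻¹ * n)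
  gen : ∀ K : Subgroup G, (∀ S ∈ F, S ≤ K) → N ≤ K
  triv : ∀ x ∈ N, (∀ S ∈ F, Cen S x) → x = 1
  conj : ∀ S ∈ F, ∀ g : G, cj g S ∈ F
  trans : ∀ S ∈ F, ∀ S' ∈ F, ∃ g : G, S' = cj g S
  ne : F.Nonempty

theorem exists_fam [Finite G] {N : Subgroup G} (hN : MinBy ⊤ N) (hna : ¬ ∀ x ∈ N, ∀ y ∈ N, x * y = y * x) :
    ∃ F : Finset (Subgroup G), Fam N F := by
  classical
  have : Fintype (Subgroup G) := Fintype.ofFinite _
  obtain ⟨T, hTN, hT⟩ := exists_minBy N N hN.ne_bot (InvBy.self N)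
  have hNn := hN.normal
  have hc1 : ∀ g : G, ∀ n ∈ N, g⁻¹ * n * g ∈ N := by
    intro g n hn
    have := hNn.conj_mem n hn g⁻¹
    rwa [inv_inv] at this
  have hc2 : ∀ g : G, ∀ n ∈ N, g * n * g⁻¹ ∈ N := fun g n hn => hNn.conj_mem n hn g
  let F : Finset (Subgroup G) := Finset.univ.filter (fun S => ∃ g : G, S = cj g T)
  have hF : ∀ S, S ∈ F ↔ ∃ g : G, S = cj g T := by
    intro S; simp [F]
  have hmin : ∀ S ∈ F, MinBy N S := by
    intro S hS
    obtain ⟨g, rfl⟩ := (hF S).mp hS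
    exact hT.conjugate g (hc1 g) (hc2 g)
  have hle : ∀ S ∈ F, S ≤ N := by
    intro S hS
    obtain ⟨g, rfl⟩ := (hF S).mp hS
    intro x hx
    rw [mem_cj] at hx
    have := hc2 g _ (hTN hx)
    have e : g * (g⁻¹ * x * g) * g⁻¹ = x := by group
    rwa [e] at this
  have hnab : ∀ S ∈ F, ¬ ∀ x ∈ S, ∀ y ∈ S, x * y = y * x := fun S hS => hN.nonabelian_of (hmin S hS) (hle S hS) hna
  have hcc : ∀ g h : G, cj g (cj h T) = cj (g * h) T := by
    intro g h
    ext x
    rw [mem_cj, mem_cj, mem_cj]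
    have : h⁻¹ * (g⁻¹ * x * g) * h = (g * h)⁻¹ * x * (g * h) := by group
    rw [this]
  have hgen : ∀ K : Subgroup G, (∀ S ∈ F, S ≤ K) → N ≤ K := by
    intro K hK
    apply hN.le_of_conj hTN hT.ne_bot
    intro g t ht
    apply hK (cj g T) ((hF _).mpr ⟨g, rfl⟩)
    rw [mem_cj]
    have : g⁻¹ * (g * t * g⁻¹) * g = t := by group
    rw [this]; exact ht
  refine ⟨F, hmin, hle, hnab, ?_, ?_, ?_, hgen, ?_, ?_, ?_, ⟨T, (hF T).mpr ⟨1, ?_⟩⟩⟩
  · intro S hS S' hS' hne x hx y hy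
    exact (hmin S hS).commute (hmin S' hS') (hle S hS) (hle S' hS') hne x hx y hy
  · intro S hS x hx hc
    have h1 := (hmin S hS).inf_centralizer (hnab S hS)
    have h2 : x ∈ S ⊓ centralizer (S : Set G) := by
      refine ⟨hx, mem_centralizer_iff.mpr ?_⟩
      intro y hy
      exact (hc y hy).symm
    rw [h1] at h2
    exact h2
  · intro S hS n hn
    obtain ⟨s, hs, b, hb, hnb⟩ := (hN.decomp (hmin S hS) (hle S hS) hna).prod n hn
    refine ⟨s, hs, ?_⟩
    rw [hnb, inv_mul_cancel_left]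
    intro y hy
    have := mem_centralizer_iff.mp hb.2 y hy
    exact this.symm
  · intro x hx hc
    have h1 : N ≤ centralizer {x} := by
      apply hgen
      intro S hS y hy
      rw [mem_centralizer_iff]
      intro z hz
      rw [Set.mem_singleton_iff] at hz
      rw [hz]
      exact hc S hS y hy
    have h2 := hN.inf_centralizer hna
    have h3 : x ∈ N ⊓ centralizer (N : Set G) := by
      refine ⟨hx, mem_centralizer_iff.mpr ?_⟩
      intro y hy
      exact ((mem_centralizer_iff.mp (h1 hy)) x rfl).symm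
    rw [h2] at h3
    exact h3
  · intro S hS g
    obtain ⟨h, rfl⟩ := (hF S).mp hS
    exact (hF _).mpr ⟨g * h, hcc g h⟩
  · intro S hS S' hS'
    obtain ⟨h, rfl⟩ := (hF S).mp hS
    obtain ⟨h', rfl⟩ := (hF S').mp hS'
    exact ⟨h' * h⁻¹, by rw [hcc, inv_mul_cancel_right]⟩
  · ext x; rw [mem_cj]; simp

section fam

variable {N : Subgroup G} {F : Finset (Subgroup G)}

/-- the elements of `N` whose components outside `E` are trivial -/
def NE (N : Subgroup G) (F E : Finset (Subgroup G)) : Subgroup G where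
  carrier := {x | x ∈ N ∧ ∀ S ∈ F, S ∉ E → Cen S x}
  mul_mem' := fun ha hb => ⟨N.mul_mem ha.1 hb.1, fun S hS hE => (ha.2 S hS hE).mul (hb.2 S hS hE)⟩
  one_mem' := ⟨N.one_mem, fun S _ _ => Cen.one S⟩
  inv_mem' := fun ha => ⟨N.inv_mem ha.1, fun S hS hE => (ha.2 S hS hE).inv⟩

theorem mem_NE {E : Finset (Subgroup G)} {x : G} : x ∈ NE N F E ↔ x ∈ N ∧ ∀ S ∈ F, S ∉ E → Cen S x := Iff.rfl

theorem Fam.NE_empty (hF : Fam N F) : NE N F ∅ = ⊥ := by
  rw [eq_bot_iff]
  intro x hx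
  rw [mem_bot]
  exact hF.triv x hx.1 (fun S hS => hx.2 S hS (by simp))

theorem Fam.NE_self : NE N F F = N := by
  ext x
  rw [mem_NE]
  exact ⟨fun h => h.1, fun h => ⟨h, fun S hS hn => absurd hS hn⟩⟩

theorem NE_mono {E E' : Finset (Subgroup G)} (h : E ⊆ E') : NE N F E ≤ NE N F E' :=
  fun _ hx => ⟨hx.1, fun S hS hE => hx.2 S hS (fun h' => hE (h h'))⟩

theorem Fam.le_NE [DecidableEq (Subgroup G)] (hF : Fam N F) {S : Subgroup G} (hS : S ∈ F) {E : Finset (Subgroup G)}
    (hE : S ∈ E) : S ≤ NE N F E := by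
  intro x hx
  refine ⟨hF.le S hS hx, fun S' hS' hE' => ?_⟩
  have hne : S ≠ S' := by
    rintro rfl; exact hE' hE
  exact hF.comm S hS S' hS' hne x hx

theorem Fam.NE_conj (hF : Fam N F) {E : Finset (Subgroup G)} {n x : G} (hn : n ∈ N) (hx : x ∈ NE N F E) :
    n * x * n⁻¹ ∈ NE N F E :=
  ⟨N.mul_mem (N.mul_mem hn hx.1) (N.inv_mem hn), fun S hS hE => (hx.2 S hS hE).conj (hF.minBy S hS).inv hn⟩

theorem Fam.NE_insert_dec [DecidableEq (Subgroup G)] (hF : Fam N F) {S : Subgroup G} (hS : S ∈ F) {E : Finset (Subgroup G)}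
    {x : G} (hx : x ∈ NE N F (insert S E)) : ∃ a ∈ NE N F E, ∃ s ∈ S, x = a * s := by
  obtain ⟨s, hs, hc⟩ := hF.dec S hS x hx.1
  have h1 : x * s⁻¹ = s * (s⁻¹ * x) * s⁻¹ := by group
  have h2 : Cen S (x * s⁻¹) := by
    rw [h1]; exact hc.conj (hF.minBy S hS).inv (hF.le S hS hs)
  refine ⟨x * s⁻¹, ⟨N.mul_mem hx.1 (N.inv_mem (hF.le S hS hs)), fun S' hS' hE' => ?_⟩, s, hs, by group⟩
  by_cases he : S = S'
  · rw [← he]; exact h2
  · have h3 : S' ∉ insert S E := by
      rw [Finset.mem_insert, not_or]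
      exact ⟨fun h => he h.symm, hE'⟩
    exact (hx.2 S' hS' h3).mul (hF.comm S hS S' hS' he s hs).inv

theorem Fam.NE_singleton [DecidableEq (Subgroup G)] (hF : Fam N F) {S : Subgroup G} (hS : S ∈ F) : NE N F {S} = S := by
  apply le_antisymm
  · intro x hx
    have hx' : x ∈ NE N F (insert S ∅) := hx
    obtain ⟨a, ha, s, hs, rfl⟩ := hF.NE_insert_dec hS hx'
    rw [hF.NE_empty, mem_bot] at ha
    rw [ha, one_mul]; exact hs
  · exact hF.le_NE hS (Finset.mem_singleton_self S)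

theorem Fam.card_NE_insert [Finite G] [DecidableEq (Subgroup G)] (hF : Fam N F) {S : Subgroup G} (hS : S ∈ F)
    {E : Finset (Subgroup G)} (hE : S ∉ E) : Nat.card (NE N F E) * Nat.card S ≤ Nat.card (NE N F (insert S E)) := by
  rw [← Nat.card_prod]
  apply Nat.card_le_card_of_injective (fun z : NE N F E × S => (⟨(z.1 : G) * (z.2 : G),
    mul_mem (NE_mono (Finset.subset_insert S E) z.1.2) (hF.le_NE hS (Finset.mem_insert_self S E) z.2.2)⟩ : NE N F (insert S E)))
  rintro ⟨a, s⟩ ⟨a', s'⟩ h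
  have h1 : (a : G) * (s : G) = (a' : G) * (s' : G) := congrArg (fun z : NE N F (insert S E) => (z : G)) h
  have h2 : (a' : G)⁻¹ * (a : G) = (s' : G) * (s : G)⁻¹ := by
    rw [inv_mul_eq_iff_eq_mul, ← mul_assoc, ← h1, mul_inv_cancel_right]
  have h3 : (s' : G) * (s : G)⁻¹ = 1 := by
    apply hF.cz S hS _ (S.mul_mem s'.2 (S.inv_mem s.2))
    rw [← h2]
    exact ((a'.2).2 S hS hE).inv.mul ((a.2).2 S hS hE)
  have h4 : (s : G) = s' := (mul_inv_eq_one.mp h3).symm
  have h5 : (a : G) = a' := by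
    rw [h4] at h1; exact mul_right_cancel h1
  exact Prod.ext (Subtype.ext h5) (Subtype.ext h4)

theorem Fam.pow_le_card_NE [Finite G] [DecidableEq (Subgroup G)] (hF : Fam N F) (t : ℕ) (ht : ∀ S ∈ F, Nat.card S = t)
    (E : Finset (Subgroup G)) (hE : E ⊆ F) : t ^ E.card ≤ Nat.card (NE N F E) := by
  induction E using Finset.induction_on with
  | empty => rw [Finset.card_empty, pow_zero]; exact Nat.card_pos
  | insert S E hS ih =>
    have h1 := ih (fun x hx => hE (Finset.mem_insert_of_mem hx))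
    have hSF := hE (Finset.mem_insert_self S E)
    rw [Finset.card_insert_of_notMem hS, pow_succ]
    calc t ^ E.card * t ≤ Nat.card (NE N F E) * Nat.card S := by rw [ht S hSF]; exact Nat.mul_le_mul_right t h1
      _ ≤ _ := hF.card_NE_insert hSF hS

theorem Fam.card_eq (hF : Fam N F) {S S' : Subgroup G} (hS : S ∈ F) (hS' : S' ∈ F) : Nat.card S = Nat.card S' := by
  obtain ⟨g, rfl⟩ := hF.trans S hS S' hS'
  rw [card_cj]

theorem Fam.cl_simple_le [Finite G] (hF : Fam N F) {S : Subgroup G} (hS : S ∈ F) : cl S ≤ 1 := by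
  apply cl_le_one
  intro M hM
  have h1 : InvBy N (M.map S.subtype) := by
    rintro n hn _ ⟨m, hm, rfl⟩
    obtain ⟨s, hs, hc⟩ := hF.dec S hS n hn
    have h2 : n * (m : G) * n⁻¹ = s * m * s⁻¹ := by
      have h3 := hc m m.2
      calc n * (m : G) * n⁻¹ = s * ((s⁻¹ * n) * m) * n⁻¹ := by group
        _ = s * (m * (s⁻¹ * n)) * n⁻¹ := by rw [h3]
        _ = s * m * s⁻¹ := by group
    refine ⟨⟨s, hs⟩ * m * ⟨s, hs⟩⁻¹, hM.conj_mem m hm _, ?_⟩
    show s * (m : G) * s⁻¹ = n * (m : G) * n⁻¹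
    rw [h2]
  have h2 : M.map S.subtype ≤ S := Subgroup.map_subtype_le M
  rcases (hF.minBy S hS).min _ h1 h2 with h3 | h3
  · left
    exact (Subgroup.map_eq_bot_iff_of_injective M S.subtype_injective).mp h3
  · right
    rw [eq_top_iff]
    intro x _
    have : (x : G) ∈ M.map S.subtype := by rw [h3]; exact x.2
    obtain ⟨y, hy, hxy⟩ := this
    have : y = x := Subtype.ext hxy
    rw [← this]; exact hy

theorem Fam.cl_NE_le [Finite G] [DecidableEq (Subgroup G)] (hF : Fam N F) (E : Finset (Subgroup G)) (hE : E ⊆ F) :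
    cl (NE N F E) ≤ E.card := by
  induction E using Finset.induction_on with
  | empty =>
    rw [hF.NE_empty, cl_bot, Finset.card_empty]
  | insert S E hS ih =>
    have h1 := ih (fun x hx => hE (Finset.mem_insert_of_mem hx))
    have hSF := hE (Finset.mem_insert_self S E)
    rw [Finset.card_insert_of_notMem hS]
    have h2 := cl_le_add (NE N F E) (NE N F (insert S E)) S (NE_mono (Finset.subset_insert S E))
      (hF.le_NE hSF (Finset.mem_insert_self S E)) (fun b hb a ha => hF.NE_conj hb.1 ha) (fun b hb => hF.NE_insert_dec hSF hb)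
    have h3 := hF.cl_simple_le hSF
    omega

theorem Fam.cl_le [Finite G] (hF : Fam N F) : cl N ≤ F.card := by
  classical
  have := hF.cl_NE_le F (Finset.Subset.refl F)
  rwa [Fam.NE_self] at this

theorem Fam.four_le_card [Finite G] (hF : Fam N F) {S : Subgroup G} (hS : S ∈ F) : 4 ≤ Nat.card S := by
  have hn := hF.nab S hS
  push Not at hn
  obtain ⟨x, hx, y, hy, hxy⟩ := hn
  have hx1 : x ≠ 1 := by rintro rfl; apply hxy; simp
  have hy1 : y ≠ 1 := by rintro rfl; apply hxy; simp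
  have hxny : x ≠ y := by rintro rfl; exact hxy rfl
  have hxy1 : x * y ≠ 1 := by
    intro h
    apply hxy
    have : y = x⁻¹ := eq_inv_of_mul_eq_one_right h
    rw [this]; simp
  classical
  have : Fintype S := Fintype.ofFinite _
  let A : Finset S := {1, ⟨x, hx⟩, ⟨y, hy⟩, ⟨x * y, S.mul_mem hx hy⟩}
  have hA : A.card = 4 := by
    rw [Finset.card_insert_of_notMem, Finset.card_insert_of_notMem, Finset.card_insert_of_notMem, Finset.card_singleton]
    · simp only [Finset.mem_singleton, Subtype.mk.injEq]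
      intro h; exact hx1 (by simpa using h.symm)
    · simp only [Finset.mem_insert, Finset.mem_singleton, Subtype.mk.injEq, not_or]
      refine ⟨hxny, fun h => hy1 ?_⟩
      exact (left_eq_mul.mp h)
    · simp only [Finset.mem_insert, Finset.mem_singleton, not_or]
      refine ⟨fun h => hx1 (congrArg Subtype.val h).symm, fun h => hy1 (congrArg Subtype.val h).symm, fun h => hxy1 (congrArg Subtype.val h).symm⟩
  rw [Nat.card_eq_fintype_card, ← hA]
  exact Finset.card_le_univ A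

end fam

end Cfsg.Agent.Lib.CompLengthFam
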