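import Mathlib
import Cfsg.Agent.Lib.CompLengthFam
import Cfsg.Agent.Lib.PrimNormal

/-!
Composition length of primitive groups with a nonabelian minimal normal subgroup (helper95).
-/

set_option autoImplicit false

namespace Cfsg.Agent.Lib.CompLengthPrim

open Subgroup MulAction Cfsg.Agent.Lib.MinNormal Cfsg.Agent.Lib.CompLength Cfsg.Agent.Lib.CompLengthFam

theorem invBy_closure {G : Type*} [Group G] (N : Subgroup G) (A : Set G)
    (h : ∀ n ∈ N, ∀ a ∈ A, n * a * n⁻¹ ∈ closure A) : InvBy N (closure A) := by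
  intro n hn x hx
  induction hx using closure_induction with
  | mem a ha => exact h n hn a ha
  | one => rw [mul_one, mul_inv_cancel]; exact one_mem _
  | mul a b _ _ ha hb =>
    have : n * (a * b) * n⁻¹ = (n * a * n⁻¹) * (n * b * n⁻¹) := by group
    rw [this]; exact mul_mem ha hb
  | inv a _ ha =>
    have : n * a⁻¹ * n⁻¹ = (n * a * n⁻¹)⁻¹ := by group
    rw [this]; exact inv_mem ha

section

variable {G Ω : Type*} [Group G] [MulAction G Ω] {N : Subgroup G} {F : Finset (Subgroup G)}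

theorem not_le_stab [FaithfulSMul G Ω] (hF : Fam N F) (hNn : N.Normal) (α : Ω) (htr : ∀ ω : Ω, ∃ n ∈ N, n • α = ω)
    (hne : ∃ ω : Ω, ω ≠ α) : ∀ S ∈ F, ¬ S ≤ stabilizer G α := by
  intro S hS hle
  have hNH : N ≤ stabilizer G α := by
    apply hF.gen
    intro S' hS' x hx
    obtain ⟨g, rfl⟩ := hF.trans S hS S' hS'
    rw [mem_cj] at hx
    obtain ⟨n, hn, hnα⟩ := htr (g⁻¹ • α)
    -- h = (n⁻¹ g⁻¹) fixes α
    have hh : n⁻¹ * g⁻¹ ∈ stabilizer G α := by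
      rw [mem_stabilizer_iff, mul_smul, ← hnα, inv_smul_smul]
    have h1 : n⁻¹ * (g⁻¹ * x * g) * n ∈ S := by
      have := (hF.minBy S hS).inv n⁻¹ (N.inv_mem hn) _ hx
      rwa [inv_inv] at this
    have h2 := hle h1
    have h3 : x = (n⁻¹ * g⁻¹)⁻¹ * (n⁻¹ * (g⁻¹ * x * g) * n) * (n⁻¹ * g⁻¹) := by group
    rw [h3]
    exact mul_mem (mul_mem (inv_mem hh) h2) hh
  obtain ⟨ω, hω⟩ := hne
  obtain ⟨n, hn, hnω⟩ := htr ω
  exact hω (hnω.symm.trans (hNH hn))

/-- the set of points reached from `α` by the simple factors -/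
def Om1 (F : Finset (Subgroup G)) (α : Ω) : Set Ω := {ω | ∃ S ∈ F, ∃ s ∈ S, s • α = ω}

theorem faithful_on [FaithfulSMul G Ω] (hF : Fam N F) (α : Ω) (htr : ∀ ω : Ω, ∃ n ∈ N, n • α = ω)
    (hnle : ∀ S ∈ F, ¬ S ≤ stabilizer G α) (x : G) (hx : x • α = α)
    (hfix : ∀ ω ∈ Om1 F α, x • ω = ω) : x = 1 := by
  have hxi : x⁻¹ • α = α := by rw [inv_smul_eq_iff, hx]
  -- the basic elements of the stabiliser
  have hd : ∀ S ∈ F, ∀ s ∈ S, s⁻¹ * (x * s * x⁻¹) ∈ stabilizer G α := by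
    intro S hS s hs
    rw [mem_stabilizer_iff, mul_smul, mul_smul, mul_smul, hxi, hfix (s • α) ⟨S, hS, s, hs, rfl⟩, inv_smul_smul]
  have hkey : ∀ S ∈ F, Cen S x := by
    intro S hS
    have hmin := hF.minBy S hS
    -- step 1: x normalises S
    have hnorm : cj x S = S := by
      by_contra hne
      have hS' := hF.conj S hS x
      have hcomm := hF.comm S hS (cj x S) hS' (fun h => hne h.symm)
      have hxs : ∀ s ∈ S, x * s * x⁻¹ ∈ cj x S := by
        intro s hs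
        rw [mem_cj]
        have : x⁻¹ * (x * s * x⁻¹) * x = s := by group
        rw [this]; exact hs
      have h1 : ∀ s ∈ S, ∀ r ∈ S, (r * s)⁻¹ * (s * r) ∈ stabilizer G α := by
        intro s hs r hr
        have hA := mul_mem (hd S hS s hs) (hd S hS r hr)
        have hB := hd S hS (s * r) (S.mul_mem hs hr)
        have hc := hcomm r⁻¹ (S.inv_mem hr) _ (hxs s hs)
        have e : (s⁻¹ * (x * s * x⁻¹) * (r⁻¹ * (x * r * x⁻¹))) * ((s * r)⁻¹ * (x * (s * r) * x⁻¹))⁻¹ =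
            (r * s)⁻¹ * (s * r) := by
          calc (s⁻¹ * (x * s * x⁻¹) * (r⁻¹ * (x * r * x⁻¹))) * ((s * r)⁻¹ * (x * (s * r) * x⁻¹))⁻¹
              = s⁻¹ * ((x * s * x⁻¹) * r⁻¹) * (x * r * x⁻¹) * ((s * r)⁻¹ * (x * (s * r) * x⁻¹))⁻¹ := by group
            _ = s⁻¹ * (r⁻¹ * (x * s * x⁻¹)) * (x * r * x⁻¹) * ((s * r)⁻¹ * (x * (s * r) * x⁻¹))⁻¹ := by rw [hc]
            _ = (r * s)⁻¹ * (s * r) := by group
        rw [← e]
        exact mul_mem hA (inv_mem hB)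
      let A : Set G := {y | ∃ s ∈ S, ∃ r ∈ S, y = (r * s)⁻¹ * (s * r)}
      have hAS : closure A ≤ S := by
        rw [closure_le]
        rintro y ⟨s, hs, r, hr, rfl⟩
        exact S.mul_mem (S.inv_mem (S.mul_mem hr hs)) (S.mul_mem hs hr)
      have hAH : closure A ≤ stabilizer G α := by
        rw [closure_le]
        rintro y ⟨s, hs, r, hr, rfl⟩
        exact h1 s hs r hr
      have hinv : InvBy N (closure A) := by
        apply invBy_closure
        rintro n hn y ⟨s, hs, r, hr, rfl⟩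
        apply Subgroup.subset_closure
        refine ⟨n * s * n⁻¹, hmin.inv n hn s hs, n * r * n⁻¹, hmin.inv n hn r hr, by group⟩
      rcases hmin.min _ hinv hAS with h2 | h2
      · apply hF.nab S hS
        intro a ha b hb
        have h3 : (a * b)⁻¹ * (b * a) ∈ closure A := Subgroup.subset_closure ⟨b, hb, a, ha, rfl⟩
        rw [h2, mem_bot] at h3
        exact (inv_mul_eq_one.mp h3)
      · exact hnle S hS (h2 ▸ hAH)
    have hxS : ∀ s ∈ S, x * s * x⁻¹ ∈ S := by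
      intro s hs
      rw [← hnorm, mem_cj]
      have : x⁻¹ * (x * s * x⁻¹) * x = s := by group
      rw [this]; exact hs
    let A : Set G := {y | ∃ s ∈ S, y = s⁻¹ * (x * s * x⁻¹)}
    have hAS : closure A ≤ S := by
      rw [closure_le]
      rintro y ⟨s, hs, rfl⟩
      exact S.mul_mem (S.inv_mem hs) (hxS s hs)
    have hAH : closure A ≤ stabilizer G α := by
      rw [closure_le]
      rintro y ⟨s, hs, rfl⟩
      exact hd S hS s hs
    have hinv : InvBy N (closure A) := by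
      apply invBy_closure
      rintro n hn y ⟨s, hs, rfl⟩
      obtain ⟨u, hu, hc⟩ := hF.dec S hS n hn
      have hc1 := hc (s⁻¹ * (x * s * x⁻¹)) (S.mul_mem (S.inv_mem hs) (hxS s hs))
      have e1 : n * (s⁻¹ * (x * s * x⁻¹)) * n⁻¹ = u * (s⁻¹ * (x * s * x⁻¹)) * u⁻¹ := by
        calc n * (s⁻¹ * (x * s * x⁻¹)) * n⁻¹ = u * ((u⁻¹ * n) * (s⁻¹ * (x * s * x⁻¹))) * n⁻¹ := by group
          _ = u * ((s⁻¹ * (x * s * x⁻¹)) * (u⁻¹ * n)) * n⁻¹ := by rw [hc1]
          _ = u * (s⁻¹ * (x * s * x⁻¹)) * u⁻¹ := by group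
      have e2 : u * (s⁻¹ * (x * s * x⁻¹)) * u⁻¹ =
          ((s * u⁻¹)⁻¹ * (x * (s * u⁻¹) * x⁻¹)) * (u⁻¹⁻¹ * (x * u⁻¹ * x⁻¹))⁻¹ := by group
      rw [e1, e2]
      exact mul_mem (Subgroup.subset_closure ⟨s * u⁻¹, S.mul_mem hs (S.inv_mem hu), rfl⟩)
        (inv_mem (Subgroup.subset_closure ⟨u⁻¹, S.inv_mem hu, rfl⟩))
    rcases hmin.min _ hinv hAS with h2 | h2
    · intro s hs
      have h3 : s⁻¹ * (x * s * x⁻¹) ∈ closure A := Subgroup.subset_closure ⟨s, hs, rfl⟩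
      rw [h2, mem_bot] at h3
      have h4 : s = x * s * x⁻¹ := inv_mul_eq_one.mp h3
      exact (mul_inv_eq_iff_eq_mul.mp h4.symm)
    · exact absurd (h2 ▸ hAH) (hnle S hS)
  -- x centralises N
  have hN : N ≤ centralizer {x} := by
    apply hF.gen
    intro S hS y hy
    rw [mem_centralizer_iff]
    intro z hz
    rw [Set.mem_singleton_iff] at hz
    rw [hz]
    exact hkey S hS y hy
  apply FaithfulSMul.eq_of_smul_eq_smul (α := Ω)
  intro ω
  obtain ⟨n, hn, rfl⟩ := htr ω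
  have h1 := (mem_centralizer_iff.mp (hN hn)) x rfl
  rw [one_smul, ← mul_smul, h1, mul_smul, hx]

/-- the product of the projections of `H ∩ N` -/
def RR (N H : Subgroup G) (F : Finset (Subgroup G)) (hF : Fam N F) : Subgroup G where
  carrier := {n | n ∈ N ∧ ∀ S ∈ F, ∃ d ∈ H, d ∈ N ∧ Cen S (d⁻¹ * n)}
  one_mem' := ⟨N.one_mem, fun S _ => ⟨1, H.one_mem, N.one_mem, by rw [inv_one, one_mul]; exact Cen.one S⟩⟩
  mul_mem' := by
    rintro a b ⟨ha, ha'⟩ ⟨hb, hb'⟩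
    refine ⟨N.mul_mem ha hb, fun S hS => ?_⟩
    obtain ⟨d, hd, hdN, hc⟩ := ha' S hS
    obtain ⟨e, he, heN, hc'⟩ := hb' S hS
    refine ⟨d * e, H.mul_mem hd he, N.mul_mem hdN heN, ?_⟩
    have h1 : (d * e)⁻¹ * (a * b) = (e⁻¹ * (d⁻¹ * a) * e⁻¹⁻¹) * (e⁻¹ * b) := by group
    rw [h1]
    exact (hc.conj (hF.minBy S hS).inv (N.inv_mem heN)).mul hc'
  inv_mem' := by
    rintro a ⟨ha, ha'⟩
    refine ⟨N.inv_mem ha, fun S hS => ?_⟩
    obtain ⟨d, hd, hdN, hc⟩ := ha' S hS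
    refine ⟨d⁻¹, H.inv_mem hd, N.inv_mem hdN, ?_⟩
    have h1 : d⁻¹⁻¹ * a⁻¹ = d * (d⁻¹ * a)⁻¹ * d⁻¹ := by group
    rw [h1]
    exact hc.inv.conj (hF.minBy S hS).inv hdN

theorem mem_RR {N H : Subgroup G} {F : Finset (Subgroup G)} {hF : Fam N F} {n : G} :
    n ∈ RR N H F hF ↔ n ∈ N ∧ ∀ S ∈ F, ∃ d ∈ H, d ∈ N ∧ Cen S (d⁻¹ * n) := Iff.rfl

theorem dichotomy (hF : Fam N F) (hNn : N.Normal) (H : Subgroup G) (hH : IsCoatom H) :
    RR N H F hF ≤ H ∨ N ≤ RR N H F hF := by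
  have hnorm : H ≤ normalizer ((RR N H F hF : Subgroup G) : Set G) := by
    have h1 : ∀ h ∈ H, ∀ n ∈ RR N H F hF, h * n * h⁻¹ ∈ RR N H F hF := by
      rintro h hh n ⟨hn, hn'⟩
      refine ⟨hNn.conj_mem n hn h, fun S hS => ?_⟩
      obtain ⟨d, hd, hdN, hc⟩ := hn' (cj h⁻¹ S) (hF.conj S hS h⁻¹)
      refine ⟨h * d * h⁻¹, H.mul_mem (H.mul_mem hh hd) (H.inv_mem hh), hNn.conj_mem d hdN h, ?_⟩
      have h2 := hc.conj' (g := h)
      rw [cj_cj_inv] at h2
      have h3 : (h * d * h⁻¹)⁻¹ * (h * n * h⁻¹) = h * (d⁻¹ * n) * h⁻¹ := by group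
      rw [h3]; exact h2
    intro h hh
    rw [mem_normalizer_iff]
    intro n
    constructor
    · exact h1 h hh n
    · intro hn
      have h2 := h1 h⁻¹ (H.inv_mem hh) _ hn
      have h3 : h⁻¹ * (h * n * h⁻¹) * h⁻¹⁻¹ = n := by group
      rwa [h3] at h2
  by_cases hle : RR N H F hF ≤ H
  · exact Or.inl hle
  · right
    have htop : H ⊔ RR N H F hF = ⊤ := by
      apply hH.2
      refine lt_of_le_of_ne le_sup_left (fun h => hle ?_)
      have h2 : RR N H F hF ≤ H ⊔ RR N H F hF := le_sup_right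
      rw [← h] at h2
      exact h2
    intro n hn
    have h1 : n ∈ ((H ⊔ RR N H F hF : Subgroup G) : Set G) := by rw [htop]; trivial
    rw [coe_mul_of_left_le_normalizer_right _ _ hnorm, Set.mem_mul] at h1
    obtain ⟨h, hh, r, hr, rfl⟩ := h1
    have hhN : h ∈ N := by
      have := N.mul_mem hn (N.inv_mem hr.1)
      rwa [mul_inv_cancel_right] at this
    refine mul_mem ?_ hr
    exact ⟨hhN, fun S _ => ⟨h, hh, hhN, by rw [inv_mul_cancel]; exact Cen.one S⟩⟩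

theorem prop_of_RR_le {hF : Fam N F} {H : Subgroup G} (h : RR N H F hF ≤ H) :
    ∀ S ∈ F, ∀ d ∈ H, d ∈ N → ∀ t ∈ S, Cen S (t⁻¹ * d) → t ∈ H := by
  intro S hS d hd hdN t ht hc
  apply h
  refine ⟨hF.le S hS ht, fun S' hS' => ?_⟩
  by_cases he : S = S'
  · subst he
    refine ⟨d, hd, hdN, ?_⟩
    have : d⁻¹ * t = (t⁻¹ * d)⁻¹ := by group
    rw [this]; exact hc.inv
  · refine ⟨1, H.one_mem, N.one_mem, ?_⟩
    rw [inv_one, one_mul]
    exact hF.comm S hS S' hS' he t ht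

theorem caseA [Finite Ω] (hF : Fam N F) (α : Ω) (hnle : ∀ S ∈ F, ¬ S ≤ stabilizer G α)
    (hA : ∀ S ∈ F, ∀ d ∈ stabilizer G α, d ∈ N → ∀ t ∈ S, Cen S (t⁻¹ * d) → t ∈ stabilizer G α) :
    (F.card - 1) + (Om1 F α).ncard ≤ Nat.card Ω := by
  classical
  obtain ⟨T₀, hT₀⟩ := hF.ne
  have hex : ∀ S : Subgroup G, ∃ t : G, S ∈ F → (t ∈ S ∧ t ∉ stabilizer G α) := by
    intro S
    by_cases hS : S ∈ F
    · obtain ⟨t, ht, ht'⟩ := SetLike.not_le_iff_exists.mp (hnle S hS)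
      exact ⟨t, fun _ => ⟨ht, ht'⟩⟩
    · exact ⟨1, fun h => absurd h hS⟩
  choose t ht using hex
  let p : Subgroup G → Ω := fun S => (t T₀ * t S) • α
  let P : Finset Ω := (F.erase T₀).image p
  have hinj : Set.InjOn p (F.erase T₀ : Finset (Subgroup G)) := by
    intro S hS S' hS' hp
    by_contra hne
    have hSF := Finset.mem_of_mem_erase hS
    have hSF' := Finset.mem_of_mem_erase hS'
    have h1 : (t T₀ * t S) • α = (t T₀ * t S') • α := hp
    rw [mul_smul, mul_smul] at h1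
    have h2 : t S • α = t S' • α := smul_left_cancel _ h1
    have h3 : (t S')⁻¹ * t S ∈ stabilizer G α := by
      rw [mem_stabilizer_iff, mul_smul, h2, inv_smul_smul]
    apply (ht S hSF).2
    apply hA S hSF _ h3 (N.mul_mem (N.inv_mem (hF.le S' hSF' (ht S' hSF').1)) (hF.le S hSF (ht S hSF).1)) _ (ht S hSF).1
    have hc : Cen S (t S')⁻¹ := (hF.comm S' hSF' S hSF (fun h => hne h.symm) _ (ht S' hSF').1).inv
    have h4 : (t S)⁻¹ * ((t S')⁻¹ * t S) = (t S')⁻¹ := by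
      rw [hc (t S) (ht S hSF).1, inv_mul_cancel_left]
    rw [h4]; exact hc
  have hcard : P.card = F.card - 1 := by
    rw [Finset.card_image_of_injOn hinj, Finset.card_erase_of_mem hT₀]
  have hdisj : Disjoint (P : Set Ω) (Om1 F α) := by
    rw [Set.disjoint_left]
    rintro ω hω ⟨S', hS', u, hu, huω⟩
    obtain ⟨S, hS, rfl⟩ := Finset.mem_image.mp (Finset.mem_coe.mp hω)
    have hSF := Finset.mem_of_mem_erase hS
    have hST : S ≠ T₀ := Finset.ne_of_mem_erase hS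
    have h1 : u⁻¹ * (t T₀ * t S) ∈ stabilizer G α := by
      rw [mem_stabilizer_iff, mul_smul]
      have : (t T₀ * t S) • α = u • α := huω.symm
      rw [this, inv_smul_smul]
    have h1N : u⁻¹ * (t T₀ * t S) ∈ N :=
      N.mul_mem (N.inv_mem (hF.le S' hS' hu)) (N.mul_mem (hF.le T₀ hT₀ (ht T₀ hT₀).1) (hF.le S hSF (ht S hSF).1))
    by_cases he : S' = T₀
    · -- component at S
      apply (ht S hSF).2
      apply hA S hSF _ h1 h1N _ (ht S hSF).1
      have hc1 : Cen S (u⁻¹ * t T₀) := by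
        subst he
        exact hF.comm S' hS' S hSF (fun h => hST h.symm) _ (S'.mul_mem (S'.inv_mem hu) (ht S' hS').1)
      have h4 : (t S)⁻¹ * (u⁻¹ * (t T₀ * t S)) = u⁻¹ * t T₀ := by
        rw [← mul_assoc u⁻¹, hc1 (t S) (ht S hSF).1, inv_mul_cancel_left]
      rw [h4]; exact hc1
    · apply (ht T₀ hT₀).2
      apply hA T₀ hT₀ _ h1 h1N _ (ht T₀ hT₀).1
      have hc1 : Cen T₀ u⁻¹ := (hF.comm S' hS' T₀ hT₀ he _ hu).inv
      have hc2 : Cen T₀ (t S) := hF.comm S hSF T₀ hT₀ hST _ (ht S hSF).1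
      have h4 : (t T₀)⁻¹ * (u⁻¹ * (t T₀ * t S)) = u⁻¹ * t S := by
        rw [← mul_assoc u⁻¹, hc1 (t T₀) (ht T₀ hT₀).1, mul_assoc, inv_mul_cancel_left]
      rw [h4]; exact hc1.mul hc2
  have hun : ((P : Set Ω) ∪ Om1 F α).ncard = P.card + (Om1 F α).ncard := by
    rw [Set.ncard_union_eq hdisj (Set.toFinite _) (Set.toFinite _), Set.ncard_coe_finset]
  rw [← hcard, ← hun, ← Set.ncard_univ]
  exact Set.ncard_le_ncard (Set.subset_univ _) (Set.toFinite _)

theorem caseB [Finite G] (hF : Fam N F) (H : Subgroup G) (hnle : ∀ S ∈ F, ¬ S ≤ H)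
    (hB : ∀ n ∈ N, ∀ S ∈ F, ∃ d ∈ H, d ∈ N ∧ Cen S (d⁻¹ * n)) :
    ∃ E ⊆ F, F.card ≤ 2 * E.card ∧ NE N F E ⊓ H = ⊥ := by
  classical
  -- conjugating an element of S by n is the same as conjugating by some d in H
  have hconj : ∀ n ∈ N, ∀ S ∈ F, ∃ d ∈ H, d ∈ N ∧ ∀ s ∈ S, n * s * n⁻¹ = d * s * d⁻¹ := by
    intro n hn S hS
    obtain ⟨d, hd, hdN, hc⟩ := hB n hn S hS
    refine ⟨d, hd, hdN, fun s hs => ?_⟩
    have h1 := hc s hs
    calc n * s * n⁻¹ = d * ((d⁻¹ * n) * s) * n⁻¹ := by group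
      _ = d * (s * (d⁻¹ * n)) * n⁻¹ := by rw [h1]
      _ = d * s * d⁻¹ := by group
  have hSH : ∀ S ∈ F, S ⊓ H = ⊥ := by
    intro S hS
    have hinv : InvBy N (S ⊓ H) := by
      rintro n hn x ⟨hxS, hxH⟩
      obtain ⟨d, hd, hdN, hdc⟩ := hconj n hn S hS
      refine ⟨(hF.minBy S hS).inv n hn x hxS, ?_⟩
      rw [hdc x hxS]
      exact H.mul_mem (H.mul_mem hd hxH) (H.inv_mem hd)
    rcases (hF.minBy S hS).min _ hinv inf_le_left with h | h
    · exact h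
    · exact absurd (inf_eq_left.mp h) (hnle S hS)
  -- maximal E
  let 𝓔 : Finset (Finset (Subgroup G)) := F.powerset.filter (fun E => NE N F E ⊓ H = ⊥)
  have h𝓔 : 𝓔.Nonempty := ⟨∅, by
    rw [Finset.mem_filter]
    exact ⟨Finset.empty_mem_powerset F, by rw [hF.NE_empty, bot_inf_eq]⟩⟩
  obtain ⟨E, hE, hmax⟩ := Finset.exists_max_image 𝓔 Finset.card h𝓔
  rw [Finset.mem_filter, Finset.mem_powerset] at hE
  obtain ⟨hEF, hEH⟩ := hE
  refine ⟨E, hEF, ?_, hEH⟩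
  -- the groups D_S
  have hDne : ∀ S ∈ F \ E, NE N F (insert S E) ⊓ H ≠ ⊥ := by
    intro S hS hbot
    rw [Finset.mem_sdiff] at hS
    have h1 : insert S E ∈ 𝓔 := by
      rw [Finset.mem_filter, Finset.mem_powerset]
      exact ⟨Finset.insert_subset hS.1 hEF, hbot⟩
    have h2 := hmax _ h1
    rw [Finset.card_insert_of_notMem hS.2] at h2
    omega
  -- claim 1
  have claim1 : ∀ S : Subgroup G, ∃ S' : Subgroup G, S ∈ F \ E → (S' ∈ E ∧ ∃ x ∈ NE N F (insert S E) ⊓ H, ¬ Cen S' x) := by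
    intro S
    by_cases hS : S ∈ F \ E
    · by_contra hcon
      push Not at hcon
      apply hDne S hS
      rw [eq_bot_iff]
      intro x hx
      have hSF := (Finset.mem_sdiff.mp hS).1
      have h1 : x ∈ NE N F {S} := by
        refine ⟨hx.1.1, fun S' hS' hne => ?_⟩
        by_cases hE' : S' ∈ E
        · exact (hcon S').2 hE' x hx
        · apply hx.1.2 S' hS'
          rw [Finset.mem_insert, not_or]
          exact ⟨fun h => hne (Finset.mem_singleton.mpr h), hE'⟩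
      rw [hF.NE_singleton hSF] at h1
      rw [← hSH S hSF]
      exact ⟨h1, hx.2⟩
    · exact ⟨⊥, fun h => absurd h hS⟩
  choose g hg using claim1
  -- components of D_S in S'
  have hcomp : ∀ S ∈ F \ E, ∀ S' ∈ E, (∃ x ∈ NE N F (insert S E) ⊓ H, ¬ Cen S' x) →
      ∀ s ∈ S', ∃ x ∈ NE N F (insert S E) ⊓ H, Cen S' (s⁻¹ * x) := by
    intro S hS S' hS' hx
    have hS'F := hEF hS'
    let W : Subgroup G :=
      { carrier := {s | s ∈ S' ∧ ∃ x ∈ NE N F (insert S E) ⊓ H, Cen S' (s⁻¹ * x)}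
        one_mem' := ⟨S'.one_mem, 1, one_mem _, by rw [inv_one, one_mul]; exact Cen.one _⟩
        mul_mem' := by
          rintro a b ⟨ha, x, hx, hc⟩ ⟨hb, y, hy, hc'⟩
          refine ⟨S'.mul_mem ha hb, x * y, mul_mem hx hy, ?_⟩
          have h1 : (a * b)⁻¹ * (x * y) = (b⁻¹ * (a⁻¹ * x) * b⁻¹⁻¹) * (b⁻¹ * y) := by group
          rw [h1]
          exact (hc.conj (hF.minBy S' hS'F).inv (N.inv_mem (hF.le S' hS'F hb))).mul hc'
        inv_mem' := by
          rintro a ⟨ha, x, hx, hc⟩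
          refine ⟨S'.inv_mem ha, x⁻¹, inv_mem hx, ?_⟩
          have h1 : a⁻¹⁻¹ * x⁻¹ = a * (a⁻¹ * x)⁻¹ * a⁻¹ := by group
          rw [h1]
          exact hc.inv.conj (hF.minBy S' hS'F).inv (hF.le S' hS'F ha) }
    have hW : ∀ s, s ∈ W ↔ s ∈ S' ∧ ∃ x ∈ NE N F (insert S E) ⊓ H, Cen S' (s⁻¹ * x) := fun s => Iff.rfl
    have hWS : W ≤ S' := fun s hs => hs.1
    have hWinv : InvBy N W := by
      rintro n hn s ⟨hs, x, hx, hc⟩
      obtain ⟨d, hd, hdN, hdc⟩ := hconj n hn S' hS'F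
      rw [hdc s hs, hW]
      refine ⟨(hF.minBy S' hS'F).inv d hdN s hs, d * x * d⁻¹, ⟨hF.NE_conj hdN hx.1, H.mul_mem (H.mul_mem hd hx.2) (H.inv_mem hd)⟩, ?_⟩
      have h1 : (d * s * d⁻¹)⁻¹ * (d * x * d⁻¹) = d * (s⁻¹ * x) * d⁻¹ := by group
      rw [h1]
      exact hc.conj (hF.minBy S' hS'F).inv hdN
    rcases (hF.minBy S' hS'F).min W hWinv hWS with h | h
    · exfalso
      obtain ⟨x, hx, hnc⟩ := hx
      apply hnc
      obtain ⟨s, hs, hc⟩ := hF.dec S' hS'F x hx.1.1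
      have h1 : s ∈ W := (hW s).mpr ⟨hs, x, hx, hc⟩
      rw [h, mem_bot] at h1
      rw [h1, inv_one, one_mul] at hc
      exact hc
    · intro s hs
      have h1 : s ∈ W := by rw [h]; exact hs
      exact ((hW s).mp h1).2
  -- claim 2: injectivity
  have hinj : Set.InjOn g (F \ E : Finset (Subgroup G)) := by
    intro S₁ hS₁ S₂ hS₂ heq
    by_contra hne
    have h1 := hg S₁ hS₁
    have h2 := hg S₂ hS₂
    rw [← heq] at h2
    have hS'F := hEF h1.1
    have hw1 := hcomp S₁ hS₁ (g S₁) h1.1 h1.2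
    have hw2 := hcomp S₂ hS₂ (g S₁) h1.1 h2.2
    apply hF.nab (g S₁) hS'F
    intro s hs r hr
    obtain ⟨x, hx, hxc⟩ := hw1 s hs
    obtain ⟨y, hy, hyc⟩ := hw2 r hr
    have hS₁' := Finset.mem_sdiff.mp hS₁
    have hS₂' := Finset.mem_sdiff.mp hS₂
    -- x and y commute
    have hxy : x * y * x⁻¹ * y⁻¹ ∈ NE N F E ⊓ H := by
      refine ⟨?_, H.mul_mem (H.mul_mem (H.mul_mem hx.2 hy.2) (H.inv_mem hx.2)) (H.inv_mem hy.2)⟩
      have ha : x * y * x⁻¹ * y⁻¹ ∈ NE N F (insert S₁ E) := by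
        have := mul_mem hx.1 (hF.NE_conj hy.1.1 (inv_mem hx.1))
        have e : x * (y * x⁻¹ * y⁻¹) = x * y * x⁻¹ * y⁻¹ := by group
        rwa [e] at this
      have hb : x * y * x⁻¹ * y⁻¹ ∈ NE N F (insert S₂ E) := mul_mem (hF.NE_conj hx.1.1 hy.1) (inv_mem hy.1)
      refine ⟨ha.1, fun S hS hSE => ?_⟩
      by_cases he : S = S₁
      · apply hb.2 S hS
        rw [Finset.mem_insert, not_or]
        exact ⟨fun h => hne (he.symm.trans h), hSE⟩
      · apply ha.2 S hS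
        rw [Finset.mem_insert, not_or]
        exact ⟨he, hSE⟩
    rw [hEH, mem_bot] at hxy
    have hcomm : x * y = y * x := by
      have := mul_inv_eq_one.mp hxy
      exact mul_inv_eq_iff_eq_mul.mp this
    -- x r x⁻¹ = r
    have hmin := hF.minBy (g S₁) hS'F
    have h3 : Cen (g S₁) (r⁻¹ * (x * r * x⁻¹)) := by
      have e : r⁻¹ * (x * r * x⁻¹) = (y⁻¹ * r)⁻¹ * (x * (y⁻¹ * r) * x⁻¹) := by
        have h4 : y⁻¹ * x = x * y⁻¹ := by
          rw [inv_mul_eq_iff_eq_mul, ← mul_assoc, ← hcomm, mul_inv_cancel_right]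
        calc r⁻¹ * (x * r * x⁻¹) = r⁻¹ * y * ((y⁻¹ * x) * r * x⁻¹) := by group
          _ = r⁻¹ * y * ((x * y⁻¹) * r * x⁻¹) := by rw [h4]
          _ = (y⁻¹ * r)⁻¹ * (x * (y⁻¹ * r) * x⁻¹) := by group
      have h5 : Cen (g S₁) (y⁻¹ * r) := by
        have : y⁻¹ * r = (r⁻¹ * y)⁻¹ := by group
        rw [this]; exact hyc.inv
      rw [e]
      exact h5.inv.mul (h5.conj hmin.inv hx.1.1)
    have h6 : r⁻¹ * (x * r * x⁻¹) = 1 :=
      hF.cz (g S₁) hS'F _ ((g S₁).mul_mem ((g S₁).inv_mem hr) (hmin.inv x hx.1.1 r hr)) h3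
    have h7 : r = x * r * x⁻¹ := inv_mul_eq_one.mp h6
    have h8 := hxc r hr
    -- s r s⁻¹ = x r x⁻¹
    have h9 : s * r * s⁻¹ = x * r * x⁻¹ := by
      calc s * r * s⁻¹ = s * (r * (s⁻¹ * x)) * x⁻¹ := by group
        _ = s * ((s⁻¹ * x) * r) * x⁻¹ := by rw [h8]
        _ = x * r * x⁻¹ := by group
    rw [← h7] at h9
    exact mul_inv_eq_iff_eq_mul.mp h9
  have hcard : (F \ E).card ≤ E.card := by
    apply Finset.card_le_card_of_injOn g _ hinj
    intro S hS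
    exact (hg S hS).1
  have := Finset.card_sdiff_add_card_eq_card hEF
  omega

theorem ncard_Om1_le [Finite G] [Finite Ω] (hF : Fam N F) (α : Ω) (t : ℕ) (ht : ∀ S ∈ F, Nat.card S = t) :
    (Om1 F α \ {α}).ncard ≤ F.card * (t - 1) := by
  classical
  have : Fintype G := Fintype.ofFinite G
  let D : Finset Ω := F.biUnion (fun S => (Finset.univ.filter (fun x : G => x ∈ S ∧ x ≠ 1)).image (fun x => x • α))
  have h1 : Om1 F α \ {α} ⊆ (D : Set Ω) := by
    rintro ω ⟨⟨S, hS, s, hs, rfl⟩, hne⟩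
    rw [Finset.mem_coe, Finset.mem_biUnion]
    refine ⟨S, hS, Finset.mem_image.mpr ⟨s, Finset.mem_filter.mpr ⟨Finset.mem_univ _, hs, ?_⟩, rfl⟩⟩
    rintro rfl
    exact hne (one_smul G α)
  have h2 : ∀ S ∈ F, ((Finset.univ.filter (fun x : G => x ∈ S ∧ x ≠ 1)).image (fun x => x • α)).card ≤ t - 1 := by
    intro S hS
    refine le_trans Finset.card_image_le ?_
    have h3 : (Finset.univ.filter (fun x : G => x ∈ S ∧ x ≠ 1)) = (Finset.univ.filter (fun x : G => x ∈ S)).erase 1 := by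
      ext x; simp [and_comm]
    rw [h3, Finset.card_erase_of_mem (by simp [S.one_mem])]
    have h4 : (Finset.univ.filter (fun x : G => x ∈ S)).card = t := by
      rw [← ht S hS, Nat.card_eq_fintype_card, Fintype.card_subtype]
    rw [h4]
  calc (Om1 F α \ {α}).ncard ≤ (D : Set Ω).ncard := Set.ncard_le_ncard h1 (Set.toFinite _)
    _ = D.card := Set.ncard_coe_finset D
    _ ≤ ∑ S ∈ F, ((Finset.univ.filter (fun x : G => x ∈ S ∧ x ≠ 1)).image (fun x => x • α)).card := Finset.card_biUnion_le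
    _ ≤ ∑ S ∈ F, (t - 1) := Finset.sum_le_sum h2
    _ = F.card * (t - 1) := by rw [Finset.sum_const, smul_eq_mul]

theorem numeric (f t : ℕ) (hf : 2 ≤ f) (ht : 4 ≤ t) : f * (4 * t - 1) ≤ 2 * t ^ f := by
  induction f, hf using Nat.le_induction with
  | base =>
    have : t ^ 2 = t * t := sq t
    rw [this]
    have h1 : 4 * t ≤ t * t := Nat.mul_le_mul_right t ht
    omega
  | succ f hf ih =>
    have h1 : (f + 1) * (4 * t - 1) ≤ t * (f * (4 * t - 1)) := by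
      rw [← mul_assoc]
      apply Nat.mul_le_mul_right
      nlinarith
    calc (f + 1) * (4 * t - 1) ≤ t * (f * (4 * t - 1)) := h1
      _ ≤ t * (2 * t ^ f) := Nat.mul_le_mul_left t ih
      _ = 2 * t ^ (f + 1) := by ring

end

end Cfsg.Agent.Lib.CompLengthPrim
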