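import Mathlib
import Cfsg.Agent.Lib.CompLengthPrim

/-!
Composition length of permutation groups (helper95): `3 * cl G + 4 * r ≤ 4 * n`.
-/

set_option autoImplicit false

namespace Cfsg.Agent.Lib.CompLengthMain

open Subgroup MulAction Cfsg.Agent.Lib.MinNormal Cfsg.Agent.Lib.CompLength Cfsg.Agent.Lib.CompLengthFam
  Cfsg.Agent.Lib.CompLengthPrim

/-- restriction of an action to an invariant set -/
abbrev restr {X Y : Type*} [Group X] [MulAction X Y] (A : Set Y) (hA : ∀ x : X, ∀ y ∈ A, x • y ∈ A) :
    MulAction X A where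
  smul x y := ⟨x • (y : Y), hA x y y.2⟩
  one_smul y := Subtype.ext (one_smul X (y : Y))
  mul_smul a b y := Subtype.ext (mul_smul a b (y : Y))

theorem map_to_quot {G Ω : Type*} [Group G] [MulAction G Ω] (N : Subgroup G) [N.Normal] (α : Ω)
    (htr : ∀ ω : Ω, ∃ n ∈ N, n • α = ω) :
    Function.Surjective ((QuotientGroup.mk' N).comp (stabilizer G α).subtype) := by
  intro x
  obtain ⟨g, rfl⟩ := QuotientGroup.mk'_surjective N x
  obtain ⟨n, hn, hnα⟩ := htr (g • α)
  have h1 : n⁻¹ * g ∈ stabilizer G α := by
    rw [mem_stabilizer_iff, mul_smul, ← hnα, inv_smul_smul]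
  refine ⟨⟨n⁻¹ * g, h1⟩, ?_⟩
  show QuotientGroup.mk' N (n⁻¹ * g) = QuotientGroup.mk' N g
  rw [map_mul, map_inv]
  have : QuotientGroup.mk' N n = 1 := by
    rw [QuotientGroup.mk'_apply, QuotientGroup.eq_one_iff]; exact hn
  rw [this, inv_one, one_mul]

theorem ker_map_to_quot {G Ω : Type*} [Group G] [MulAction G Ω] (N : Subgroup G) [N.Normal] (α : Ω) :
    ((QuotientGroup.mk' N).comp (stabilizer G α).subtype).ker = N.subgroupOf (stabilizer G α) := by
  ext x
  rw [MonoidHom.mem_ker, MonoidHom.comp_apply, QuotientGroup.mk'_apply, QuotientGroup.eq_one_iff]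
  rfl

theorem prim_nonabelian {G Ω : Type*} [Group G] [Finite G] [MulAction G Ω] [FaithfulSMul G Ω] [Finite Ω]
    {N : Subgroup G} {F : Finset (Subgroup G)} (hF : Fam N F) [hNn : N.Normal] (α : Ω)
    (htr : ∀ ω : Ω, ∃ n ∈ N, n • α = ω) (hne : ∃ ω : Ω, ω ≠ α) (hco : IsCoatom (stabilizer G α))
    (hIH : 3 * cl (stabilizer G α) + 4 ≤ 4 * (Om1 F α \ {α}).ncard) :
    3 * cl G + 4 ≤ 4 * Nat.card Ω := by
  classical
  have hnle := not_le_stab hF hNn α htr hne
  have hαmem : α ∈ Om1 F α := by
    obtain ⟨S, hS⟩ := hF.ne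
    exact ⟨S, hS, 1, S.one_mem, one_smul G α⟩
  have hΔ : (Om1 F α \ {α}).ncard + 1 = (Om1 F α).ncard := Set.ncard_sdiff_singleton_add_one hαmem (Set.toFinite _)
  have hle : (Om1 F α).ncard ≤ Nat.card Ω := by
    rw [← Set.ncard_univ]
    exact Set.ncard_le_ncard (Set.subset_univ _) (Set.toFinite _)
  have hk := hF.cl_le
  have hk1 : 1 ≤ F.card := Finset.card_pos.mpr hF.ne
  have e1 := cl_quotient N
  have e2 := cl_of_surjective _ (map_to_quot N α htr)
  rw [ker_map_to_quot] at e2
  rcases dichotomy hF hNn (stabilizer G α) hco with hA | hB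
  · have h1 := caseA hF α hnle (prop_of_RR_le hA)
    omega
  · have hB' : ∀ n ∈ N, ∀ S ∈ F, ∃ d ∈ stabilizer G α, d ∈ N ∧ Cen S (d⁻¹ * n) := fun n hn S hS => (hB hn).2 S hS
    have hcl : 1 ≤ cl (N.subgroupOf (stabilizer G α)) := by
      have : Nontrivial (N.subgroupOf (stabilizer G α)) := by
        rw [Subgroup.nontrivial_iff_ne_bot]
        intro hbot
        obtain ⟨S, hS⟩ := hF.ne
        apply hF.nab S hS
        intro x hx y hy
        obtain ⟨d, hd, hdN, hc⟩ := hB' x (hF.le S hS hx) S hS
        have h1 : (⟨d, hd⟩ : stabilizer G α) ∈ N.subgroupOf (stabilizer G α) := hdN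
        rw [hbot, mem_bot] at h1
        have h2 : d = 1 := congrArg Subtype.val h1
        rw [h2, inv_one, one_mul] at hc
        exact hc y hy
      exact one_le_cl
    rcases Nat.lt_or_ge F.card 3 with h3 | h3
    · omega
    · obtain ⟨E, hEF, hE2, hEH⟩ := caseB hF (stabilizer G α) hnle hB'
      obtain ⟨S₀, hS₀⟩ := hF.ne
      have ht : ∀ S ∈ F, Nat.card S = Nat.card S₀ := fun S hS => hF.card_eq hS hS₀
      have h4 := hF.four_le_card hS₀
      have h5 := ncard_Om1_le hF α _ ht
      have h6 := hF.pow_le_card_NE _ ht E hEF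
      have h7 := numeric E.card (Nat.card S₀) (by omega) h4
      have h8 : Nat.card (NE N F E) ≤ Nat.card Ω := by
        apply Nat.card_le_card_of_injective (fun x : NE N F E => (x : G) • α)
        intro x y hxy
        have h9 : (y : G)⁻¹ * (x : G) ∈ NE N F E ⊓ stabilizer G α := by
          refine ⟨(NE N F E).mul_mem ((NE N F E).inv_mem y.2) x.2, ?_⟩
          have hxy' : (x : G) • α = (y : G) • α := hxy
          show (y : G)⁻¹ * (x : G) ∈ stabilizer G α
          rw [mem_stabilizer_iff, mul_smul, hxy', inv_smul_smul]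
        rw [hEH, mem_bot] at h9
        exact Subtype.ext (inv_mul_eq_one.mp h9).symm
      set t := Nat.card S₀ with htdef
      set k := F.card with hkdef
      set f := E.card with hfdef
      -- 3k + 4k(t-1) = k(4t-1) ≤ 2 f (4t-1) ≤ 4 t^f ≤ 4 n
      have h9 : k * (4 * t - 1) ≤ 2 * (f * (4 * t - 1)) := by
        rw [← mul_assoc]
        exact Nat.mul_le_mul_right _ hE2
      have h10 : 3 * k + 4 * (k * (t - 1)) = k * (4 * t - 1) := by
        obtain ⟨u, hu⟩ : ∃ u, t = u + 1 := ⟨t - 1, by omega⟩
        rw [hu]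
        have : 4 * (u + 1) - 1 = 4 * u + 3 := by omega
        rw [this, Nat.add_sub_cancel]
        ring
      omega

/-! ### abelian socle -/

theorem cardFactors_le_log (m : ℕ) (hm : m ≠ 0) : ArithmeticFunction.cardFactors m ≤ Nat.log 2 m := by
  rw [ArithmeticFunction.cardFactors_apply]
  apply Nat.le_log_of_pow_le (by norm_num)
  have h : ∀ l : List ℕ, (∀ x ∈ l, 2 ≤ x) → 2 ^ l.length ≤ l.prod := by
    intro l
    induction l with
    | nil => intro _; simp
    | cons a l ih =>
      intro h
      rw [List.length_cons, List.prod_cons, pow_succ, mul_comm]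
      exact Nat.mul_le_mul (h a (by simp)) (ih (fun x hx => h x (by simp [hx])))
  have h1 := h m.primeFactorsList (fun x hx => (Nat.prime_of_mem_primeFactorsList hx).two_le)
  rwa [Nat.prod_primeFactorsList hm] at h1

theorem cardFactors_lt {a b : ℕ} (hab : a ∣ b) (hne : a ≠ b) (hb : b ≠ 0) :
    ArithmeticFunction.cardFactors a + 1 ≤ ArithmeticFunction.cardFactors b := by
  obtain ⟨c, rfl⟩ := hab
  have ha : a ≠ 0 := by rintro rfl; simp at hb
  have hc : c ≠ 0 := by rintro rfl; simp at hb
  have hc1 : c ≠ 1 := by rintro rfl; simp at hne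
  rw [ArithmeticFunction.cardFactors_mul ha hc]
  have : 0 < ArithmeticFunction.cardFactors c := by
    rw [Nat.pos_iff_ne_zero]
    intro h0
    rcases ArithmeticFunction.cardFactors_eq_zero_iff_eq_zero_or_one.mp h0 with h5 | h5
    · exact hc h5
    · exact hc1 h5
  omega

theorem card_stab_abelian {G : Type*} [Group G] [Finite G] (N H : Subgroup G) (hN : ∀ g : G, ∀ n ∈ N, g * n * g⁻¹ ∈ N)
    (hcen : ∀ h ∈ H, (∀ n ∈ N, h * n = n * h) → h = 1) :
    ∀ m : ℕ, ∀ A : Subgroup G, A ≤ N → Nat.card N - Nat.card A ≤ m →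
    ArithmeticFunction.cardFactors (Nat.card (H ⊓ centralizer (A : Set G) : Subgroup G)) +
      ArithmeticFunction.cardFactors (Nat.card A) * Nat.log 2 (Nat.card N - 1) ≤
      ArithmeticFunction.cardFactors (Nat.card N) * Nat.log 2 (Nat.card N - 1) := by
  intro m
  induction m with
  | zero =>
    intro A hA hm
    have hAN : A = N := Subgroup.eq_of_le_of_card_ge hA (by omega)
    subst hAN
    have h1 : H ⊓ centralizer (A : Set G) = ⊥ := by
      rw [eq_bot_iff]
      intro h hh
      rw [mem_bot]
      exact hcen h hh.1 (fun n hn => (mem_centralizer_iff.mp hh.2 n hn).symm)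
    rw [h1, Subgroup.card_bot]
    simp
  | succ m ih =>
    intro A hA hm
    by_cases hAN : A = N
    · subst hAN
      have h1 : H ⊓ centralizer (A : Set G) = ⊥ := by
        rw [eq_bot_iff]
        intro h hh
        rw [mem_bot]
        exact hcen h hh.1 (fun n hn => (mem_centralizer_iff.mp hh.2 n hn).symm)
      rw [h1, Subgroup.card_bot]
      simp
    · obtain ⟨v, hvN, hvA⟩ := SetLike.not_le_iff_exists.mp (fun h => hAN (le_antisymm hA h))
      set A' : Subgroup G := A ⊔ zpowers v with hA'
      have hA'N : A' ≤ N := sup_le hA (by rwa [zpowers_le])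
      have hvA' : v ∈ A' := (le_sup_right : zpowers v ≤ A ⊔ zpowers v) (mem_zpowers v)
      have hAA' : A ≤ A' := le_sup_left
      have hne : Nat.card A ≠ Nat.card A' := by
        intro h
        have := Subgroup.eq_of_le_of_card_ge hAA' h.ge
        apply hvA; rw [this]; exact hvA'
      have hlt : Nat.card A < Nat.card A' := lt_of_le_of_ne (Subgroup.card_le_of_le hAA') hne
      have hle' : Nat.card A' ≤ Nat.card N := Subgroup.card_le_of_le hA'N
      have h1 := ih A' hA'N (by omega)
      have h2 := cardFactors_lt (Subgroup.card_dvd_of_le hAA') hne Nat.card_pos.ne'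
      -- the index
      set C := H ⊓ centralizer (A : Set G) with hC
      set C' := H ⊓ centralizer (A' : Set G) with hC'
      have hC'C : C' ≤ C := by
        intro x hx
        refine ⟨hx.1, mem_centralizer_iff.mpr ?_⟩
        intro y hy
        exact mem_centralizer_iff.mp hx.2 y (hAA' hy)
      have hindex : C'.relIndex C ≤ Nat.card N - 1 := by
        -- cosets of C' in C inject into N \ {1} by conjugating v
        have hcard : (Set.ncard ((N : Set G) \ {1})) = Nat.card N - 1 := by
          rw [Set.ncard_sdiff_singleton_of_mem N.one_mem, ← Nat.card_coe_set_eq]; rfl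
        rw [← hcard, ← Nat.card_coe_set_eq]
        rw [relIndex, index]
        apply Nat.card_le_card_of_injective (fun q : C ⧸ C'.subgroupOf C => (⟨((Quotient.out q : C) : G) * v * ((Quotient.out q : C) : G)⁻¹, by
          refine ⟨hN _ v hvN, ?_⟩
          rw [Set.mem_singleton_iff]
          intro h
          apply hvA
          have : v = 1 := by
            have h3 : v = ((Quotient.out q : C) : G)⁻¹ * (((Quotient.out q : C) : G) * v * ((Quotient.out q : C) : G)⁻¹) * ((Quotient.out q : C) : G) := by group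
            rw [h] at h3
            rw [h3]; group
          rw [this]; exact A.one_mem⟩ : ((N : Set G) \ {1} : Set G)))
        intro q q' hqq
        have h3 : ((Quotient.out q : C) : G) * v * ((Quotient.out q : C) : G)⁻¹ = ((Quotient.out q' : C) : G) * v * ((Quotient.out q' : C) : G)⁻¹ :=
          congrArg Subtype.val hqq
        have h4 : (Quotient.out q)⁻¹ * (Quotient.out q') ∈ C'.subgroupOf C := by
          rw [mem_subgroupOf]
          have hmemC : (((Quotient.out q)⁻¹ * (Quotient.out q') : C) : G) ∈ C := ((Quotient.out q)⁻¹ * (Quotient.out q') : C).2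
          refine ⟨hmemC.1, ?_⟩
          rw [SetLike.mem_coe] at *
          have h5 : A' ≤ centralizer {(((Quotient.out q)⁻¹ * (Quotient.out q') : C) : G)} := by
            apply sup_le
            · intro a ha
              rw [mem_centralizer_iff]
              intro z hz
              rw [Set.mem_singleton_iff] at hz
              rw [hz]
              exact (mem_centralizer_iff.mp hmemC.2 a ha).symm
            · rw [zpowers_le, mem_centralizer_iff]
              intro z hz
              rw [Set.mem_singleton_iff] at hz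
              rw [hz]
              show ((Quotient.out q : C) : G)⁻¹ * ((Quotient.out q' : C) : G) * v = v * (((Quotient.out q : C) : G)⁻¹ * ((Quotient.out q' : C) : G))
              calc ((Quotient.out q : C) : G)⁻¹ * ((Quotient.out q' : C) : G) * v
                  = ((Quotient.out q : C) : G)⁻¹ * (((Quotient.out q' : C) : G) * v * ((Quotient.out q' : C) : G)⁻¹) * ((Quotient.out q' : C) : G) := by group
                _ = ((Quotient.out q : C) : G)⁻¹ * (((Quotient.out q : C) : G) * v * ((Quotient.out q : C) : G)⁻¹) * ((Quotient.out q' : C) : G) := by rw [h3]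
                _ = _ := by group
          apply mem_centralizer_iff.mpr
          intro y hy
          exact ((mem_centralizer_iff.mp (h5 hy)) _ rfl).symm
        rw [← QuotientGroup.eq] at h4
        simpa using h4
      have h3 := card_mul_relIndex hC'C
      have hrel0 : C'.relIndex C ≠ 0 := by
        intro h0
        rw [h0, mul_zero] at h3
        exact Nat.card_pos.ne h3
      have h4 : ArithmeticFunction.cardFactors (Nat.card C) ≤
          ArithmeticFunction.cardFactors (Nat.card C') + Nat.log 2 (Nat.card N - 1) := by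
        rw [← h3, ArithmeticFunction.cardFactors_mul Nat.card_pos.ne' hrel0]
        have h5 := cardFactors_le_log _ hrel0
        have h6 : Nat.log 2 (C'.relIndex C) ≤ Nat.log 2 (Nat.card N - 1) := Nat.log_mono_right hindex
        omega
      nlinarith [Nat.mul_le_mul_right (Nat.log 2 (Nat.card N - 1)) h2]

theorem numeric2 (n : ℕ) (hn : 2 ≤ n) :
    3 * ArithmeticFunction.cardFactors n + 3 * (ArithmeticFunction.cardFactors n * Nat.log 2 (n - 1)) + 4 ≤ 4 * n := by
  rcases Nat.lt_or_ge n 33 with h | h
  · rw [ArithmeticFunction.cardFactors_apply]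
    interval_cases n <;> simp <;> norm_num
  · have h1 := cardFactors_le_log n (by omega)
    set L := Nat.log 2 (n - 1) with hL
    have h2 : 5 ≤ L := Nat.le_log_of_pow_le (by norm_num) (by omega)
    have h3 : 2 ^ L ≤ n - 1 := Nat.pow_log_le_self 2 (by omega)
    have h4 : Nat.log 2 n ≤ L + 1 := by
      have h5 : n - 1 < 2 ^ (L + 1) := Nat.lt_pow_succ_log_self (by norm_num) _
      have h6 : n < 2 ^ (L + 2) := by
        rw [pow_succ]; omega
      have := Nat.log_lt_of_lt_pow (by omega) h6
      omega
    have h5 : ArithmeticFunction.cardFactors n ≤ L + 1 := by omega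
    have h6 : ArithmeticFunction.cardFactors n * L ≤ (L + 1) * L := Nat.mul_le_mul_right _ h5
    have h7 : 3 * (L + 1) * (L + 1) ≤ 4 * 2 ^ L := by
      clear_value L
      clear h3 h4 h5 h6 hL h1 h
      induction L, h2 using Nat.le_induction with
      | base => norm_num
      | succ L hL ih =>
        rw [pow_succ]
        nlinarith
    have h8 : 2 ^ L + 1 ≤ n := by omega
    have h9 : 3 * (L + 1) * (L + 1) = 3 * (L + 1) + 3 * ((L + 1) * L) := by ring
    omega

theorem prim_abelian {G Ω : Type*} [Group G] [Finite G] [MulAction G Ω] [FaithfulSMul G Ω] [Finite Ω]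
    (N : Subgroup G) [hNn : N.Normal] (hab : ∀ x ∈ N, ∀ y ∈ N, x * y = y * x) (α : Ω)
    (htr : ∀ ω : Ω, ∃ n ∈ N, n • α = ω) (hne : ∃ ω : Ω, ω ≠ α) :
    3 * cl G + 4 ≤ 4 * Nat.card Ω := by
  have hcen : ∀ h ∈ stabilizer G α, (∀ n ∈ N, h * n = n * h) → h = 1 := by
    intro h hh hc
    apply FaithfulSMul.eq_of_smul_eq_smul (α := Ω)
    intro ω
    obtain ⟨n, hn, rfl⟩ := htr ω
    rw [one_smul, ← mul_smul, hc n hn, mul_smul]
    rw [mem_stabilizer_iff] at hh
    rw [hh]
  have hreg : Function.Bijective (fun x : N => (x : G) • α) := by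
    constructor
    · intro x y hxy
      have hxy' : (x : G) • α = (y : G) • α := hxy
      have h1 : (y : G)⁻¹ * (x : G) ∈ stabilizer G α := by
        rw [mem_stabilizer_iff, mul_smul, hxy', inv_smul_smul]
      have h2 := hcen _ h1 (fun n hn => hab _ (N.mul_mem (N.inv_mem y.2) x.2) _ hn)
      exact Subtype.ext (inv_mul_eq_one.mp h2).symm
    · intro ω
      obtain ⟨n, hn, h⟩ := htr ω
      exact ⟨⟨n, hn⟩, h⟩
  have hcard : Nat.card N = Nat.card Ω := Nat.card_congr (Equiv.ofBijective _ hreg)
  have hn2 : 2 ≤ Nat.card Ω := by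
    obtain ⟨ω, hω⟩ := hne
    have : Nontrivial Ω := ⟨ω, α, hω⟩
    exact Finite.one_lt_card
  have e1 := cl_quotient N
  have e2 := cl_of_surjective _ (map_to_quot N α htr)
  have h1 := cl_le_cardFactors N
  have h2 := cl_le_cardFactors (stabilizer G α)
  have h3 := card_stab_abelian N (stabilizer G α) (fun g n hn => hNn.conj_mem n hn g) hcen _ ⊥ bot_le le_rfl
  have h4 : stabilizer G α ⊓ centralizer ((⊥ : Subgroup G) : Set G) = stabilizer G α := by
    apply inf_eq_left.mpr
    intro x _
    apply mem_centralizer_iff.mpr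
    intro y hy
    have : y = 1 := hy
    rw [this, one_mul, mul_one]
  rw [h4, Subgroup.card_bot, ArithmeticFunction.cardFactors_one, zero_mul, add_zero] at h3
  rw [hcard] at h1 h3
  have h5 := numeric2 _ hn2
  omega

/-! ### the induction -/

theorem card_orbits_pos {G Ω : Type*} [Group G] [MulAction G Ω] [Finite Ω] [Nonempty Ω] :
    1 ≤ Nat.card (orbitRel.Quotient G Ω) := by
  have : Nonempty (orbitRel.Quotient G Ω) := ⟨Quotient.mk'' (Classical.arbitrary Ω)⟩
  exact Nat.card_pos

theorem card_orbits_pretransitive {G Ω : Type*} [Group G] [MulAction G Ω] [Finite Ω] [IsPretransitive G Ω] :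
    Nat.card (orbitRel.Quotient G Ω) ≤ 1 := by
  rw [Finite.card_le_one_iff_subsingleton]
  constructor
  intro x y
  induction x using Quotient.inductionOn' with | _ a =>
  induction y using Quotient.inductionOn' with | _ b =>
  obtain ⟨g, hg⟩ := exists_smul_eq G b a
  exact Quotient.sound' ⟨g, hg⟩

theorem trivial_of_subsingleton {G Ω : Type*} [Group G] [Finite G] [MulAction G Ω] [FaithfulSMul G Ω] [Subsingleton Ω] : cl G = 0 := by
  apply cl_of_subsingleton
  rw [Nat.card_eq_one_iff_unique]
  exact ⟨⟨fun x y => FaithfulSMul.eq_of_smul_eq_smul (α := Ω) (fun ω => Subsingleton.elim _ _)⟩, ⟨1⟩⟩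


end Cfsg.Agent.Lib.CompLengthMain
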