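import Mathlib
import Cfsg.Agent.Lib.CompLengthMain
set_option autoImplicit false

namespace Cfsg.Agent.Lib.CompLengthMain2

open Subgroup MulAction Cfsg.Agent.Lib.MinNormal Cfsg.Agent.Lib.CompLength Cfsg.Agent.Lib.CompLengthFam
  Cfsg.Agent.Lib.CompLengthPrim Cfsg.Agent.Lib.CompLengthMain

universe v

def Good (m : ℕ) : Prop := ∀ (G Ω : Type v) [Group G] [Finite G] [MulAction G Ω] [FaithfulSMul G Ω] [Finite Ω],
    Nat.card G + Nat.card Ω ≤ m →
    3 * cl G + 4 * Nat.card (orbitRel.Quotient G Ω) ≤ 4 * Nat.card Ω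

/-- the image of the action on a smaller transitive set -/
theorem image_step {m : ℕ} (hm : Good.{v} m) (G D : Type v) [Group G] [Finite G] [MulAction G D] [Finite D] [Nonempty D]
    (hle : Nat.card G + Nat.card D ≤ m) :
    3 * cl (toPermHom G D).range + 4 ≤ 4 * Nat.card D := by
  have h1 : Nat.card (toPermHom G D).range ≤ Nat.card G :=
    Nat.card_le_card_of_surjective (toPermHom G D).rangeRestrict (MonoidHom.rangeRestrict_surjective _)
  have h2 := hm (toPermHom G D).range D (by omega)
  have h3 : 1 ≤ Nat.card (orbitRel.Quotient (toPermHom G D).range D) := card_orbits_pos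
  omega

theorem intrans_step {m : ℕ} (hm : Good.{v} m) (G Ω : Type v) [Group G] [Finite G] [MulAction G Ω] [FaithfulSMul G Ω] [Finite Ω]
    (hle : Nat.card G + Nat.card Ω ≤ m + 1) (α : Ω) (hα : orbit G α ≠ Set.univ) :
    3 * cl G + 4 * Nat.card (orbitRel.Quotient G Ω) ≤ 4 * Nat.card Ω := by
  classical
  obtain ⟨β, hβ⟩ := (Set.ne_univ_iff_exists_notMem _).mp hα
  have hcompl : (orbit G α).ncard + (orbit G α)ᶜ.ncard = Nat.card Ω := Set.ncard_add_ncard_compl _ (Set.toFinite _) (Set.toFinite _)
  have hc1 : 0 < (orbit G α).ncard := (Set.ncard_pos (Set.toFinite _)).mpr ⟨α, mem_orbit_self α⟩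
  have hc2 : 0 < (orbit G α)ᶜ.ncard := (Set.ncard_pos (Set.toFinite _)).mpr ⟨β, hβ⟩
  have : Nonempty (orbit G α) := ⟨⟨α, mem_orbit_self α⟩⟩
  have h1 := image_step hm G (orbit G α) (by rw [Nat.card_coe_set_eq]; omega)
  rw [Nat.card_coe_set_eq] at h1
  set K := (toPermHom G (orbit G α)).ker with hK
  have hKfix : ∀ k ∈ K, ∀ ω ∈ orbit G α, k • ω = ω := by
    intro k hk ω hω
    have h2 : toPermHom G (orbit G α) k = 1 := hk
    have h3 := congrArg (fun f : Equiv.Perm (orbit G α) => ((f ⟨ω, hω⟩ : orbit G α) : Ω)) h2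
    exact h3
  have hinv : ∀ x : K, ∀ y ∈ (orbit G α)ᶜ, x • y ∈ (orbit G α)ᶜ := by
    intro x y hy hxy
    apply hy
    have h2 : (x : G) • y ∈ orbit G α := hxy
    have h3 := smul_orbit (x : G)⁻¹ α
    rw [← h3]
    exact ⟨_, h2, inv_smul_smul (x : G) y⟩
  let _ : MulAction K ((orbit G α)ᶜ : Set Ω) := restr _ hinv
  have hfa : FaithfulSMul K ((orbit G α)ᶜ : Set Ω) := by
    constructor
    intro x y hxy
    apply Subtype.ext
    apply FaithfulSMul.eq_of_smul_eq_smul (α := Ω)
    intro ω
    by_cases hω : ω ∈ orbit G α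
    · rw [hKfix x x.2 ω hω, hKfix y y.2 ω hω]
    · exact congrArg Subtype.val (hxy ⟨ω, hω⟩)
  have hcK : Nat.card K ≤ Nat.card G := Subgroup.card_le_card_group K
  have h2 := hm K ((orbit G α)ᶜ : Set Ω) (by rw [Nat.card_coe_set_eq]; omega)
  rw [Nat.card_coe_set_eq] at h2
  have h3 := cl_eq (toPermHom G (orbit G α))
  have h4 : Nat.card (orbitRel.Quotient G Ω) ≤ Nat.card (orbitRel.Quotient K ((orbit G α)ᶜ : Set Ω)) + 1 := by
    rw [← Finite.card_option]
    let f : Option (orbitRel.Quotient K ((orbit G α)ᶜ : Set Ω)) → orbitRel.Quotient G Ω := fun o =>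
      match o with
      | none => Quotient.mk'' α
      | some q => Quotient.liftOn' q (fun y => (Quotient.mk'' (y : Ω) : orbitRel.Quotient G Ω)) (by
          intro a b hab
          obtain ⟨k, hk⟩ := hab
          apply Quotient.sound'
          exact ⟨(k : G), congrArg Subtype.val hk⟩)
    apply Nat.card_le_card_of_surjective f
    intro q
    induction q using Quotient.inductionOn' with | _ ω =>
    by_cases hω : ω ∈ orbit G α
    · exact ⟨none, Quotient.sound' (orbitRel_apply.mpr (mem_orbit_symm.mp hω))⟩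
    · exact ⟨some (Quotient.mk'' ⟨ω, hω⟩), rfl⟩
  rw [← hK] at h3
  omega

open Pointwise in
theorem imprim_step {m : ℕ} (hm : Good.{v} m) (G Ω : Type v) [Group G] [Finite G] [MulAction G Ω] [FaithfulSMul G Ω] [Finite Ω]
    [IsPretransitive G Ω]
    (hle : Nat.card G + Nat.card Ω ≤ m + 1) (B : Set Ω) (hB : IsBlock G B) (hB1 : ¬ B.Subsingleton) (hB2 : B ≠ Set.univ) :
    3 * cl G + 4 * Nat.card (orbitRel.Quotient G Ω) ≤ 4 * Nat.card Ω := by
  classical
  have hBne : B.Nonempty := by
    rw [Set.nonempty_iff_ne_empty]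
    rintro rfl
    exact hB1 Set.subsingleton_empty
  have h1 := hB.ncard_block_mul_ncard_orbit_eq hBne
  have h2 : 2 ≤ B.ncard := by
    by_contra hcon
    apply hB1
    rw [← Set.ncard_le_one_iff_subsingleton]
    omega
  have h3 : 0 < (orbit G B).ncard := (Set.ncard_pos (Set.toFinite _)).mpr ⟨B, mem_orbit_self B⟩
  have h4 : (orbit G B).ncard < Nat.card Ω := by
    rw [← h1]
    nlinarith
  have : Nonempty (orbit G B) := ⟨⟨B, mem_orbit_self B⟩⟩
  have h5 := image_step hm G (orbit G B) (by rw [Nat.card_coe_set_eq]; omega)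
  rw [Nat.card_coe_set_eq] at h5
  set K := (toPermHom G (orbit G B)).ker with hK
  have hKfix : ∀ k ∈ K, ∀ S ∈ orbit G B, k • S = S := by
    intro k hk S hS
    have h6 : toPermHom G (orbit G B) k = 1 := hk
    have h7 := congrArg (fun f : Equiv.Perm (orbit G B) => ((f ⟨S, hS⟩ : orbit G B) : Set Ω)) h6
    exact h7
  have hKtop : K ≠ ⊤ := by
    intro htop
    apply hB2
    rw [Set.eq_univ_iff_forall]
    intro ω
    obtain ⟨b, hb⟩ := hBne
    obtain ⟨g, hg⟩ := exists_smul_eq G b ω
    have h6 := hKfix g (by rw [htop]; trivial) B (mem_orbit_self B)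
    rw [← h6, ← hg]
    exact Set.smul_mem_smul_set hb
  have hcK : Nat.card K < Nat.card G := by
    rcases lt_or_eq_of_le (Subgroup.card_le_card_group K) with h | h
    · exact h
    · exact absurd (Subgroup.eq_top_of_card_eq K h) hKtop
  have h6 := hm K Ω (by omega)
  have h7 := cl_eq (toPermHom G (orbit G B))
  have h8 : Nat.card (orbit G B) ≤ Nat.card (orbitRel.Quotient K Ω) := by
    have hne : ∀ S : orbit G B, ∃ ω : Ω, ω ∈ (S : Set Ω) := by
      rintro ⟨_, g, rfl⟩
      obtain ⟨b, hb⟩ := hBne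
      exact ⟨g • b, Set.smul_mem_smul_set hb⟩
    choose pt hpt using hne
    apply Nat.card_le_card_of_injective (fun S => (Quotient.mk'' (pt S) : orbitRel.Quotient K Ω))
    intro S S' hSS
    have h9 := Quotient.exact' hSS
    rw [orbitRel_apply] at h9
    obtain ⟨k, hk⟩ := h9
    have hk' : (k : G) • pt S' = pt S := hk
    have h10 : pt S ∈ (S' : Set Ω) := by
      rw [← hKfix k k.2 S' S'.2, ← hk']
      exact Set.smul_mem_smul_set (hpt S')
    obtain ⟨g, hg⟩ := S.2
    obtain ⟨g', hg'⟩ := S'.2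
    have h11 : pt S ∈ (S : Set Ω) := hpt S
    apply Subtype.ext
    rw [← hg] at h11 ⊢
    rw [← hg'] at h10 ⊢
    exact hB.smul_eq_smul_of_nonempty ⟨_, h11, h10⟩
  rw [Nat.card_coe_set_eq] at h8
  have h9 : Nat.card (orbitRel.Quotient G Ω) ≤ 1 := card_orbits_pretransitive
  rw [← hK] at h7
  omega

theorem prim_step {m : ℕ} (hm : Good.{v} m) (G Ω : Type v) [Group G] [Finite G] [MulAction G Ω] [FaithfulSMul G Ω] [Finite Ω]
    [Nontrivial Ω] [hprim : IsPreprimitive G Ω]
    (hle : Nat.card G + Nat.card Ω ≤ m + 1) :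
    3 * cl G + 4 * Nat.card (orbitRel.Quotient G Ω) ≤ 4 * Nat.card Ω := by
  classical
  have h9 : Nat.card (orbitRel.Quotient G Ω) ≤ 1 := card_orbits_pretransitive
  obtain ⟨α⟩ : Nonempty Ω := inferInstance
  have hGne : (⊤ : Subgroup G) ≠ ⊥ := by
    intro h
    obtain ⟨ω, hω⟩ := exists_ne α
    obtain ⟨g, hg⟩ := exists_smul_eq G α ω
    have : g ∈ (⊤ : Subgroup G) := trivial
    rw [h, mem_bot] at this
    rw [this, one_smul] at hg
    exact hω hg.symm
  obtain ⟨N, -, hN⟩ := exists_minBy (⊤ : Subgroup G) ⊤ hGne (InvBy.self ⊤)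
  have hNn : N.Normal := hN.normal
  have htrN : IsPretransitive N Ω := Cfsg.Agent.Lib.PrimNormal.transitive_of_normal hprim N hN.ne_bot
  have htr : ∀ ω : Ω, ∃ n ∈ N, n • α = ω := by
    intro ω
    obtain ⟨n, hn⟩ := exists_smul_eq N α ω
    exact ⟨n, n.2, hn⟩
  have hne := exists_ne α
  by_cases hab : ∀ x ∈ N, ∀ y ∈ N, x * y = y * x
  · have := prim_abelian N hab α htr hne
    omega
  · obtain ⟨F, hF⟩ := exists_fam hN hab
    have hco : IsCoatom (stabilizer G α) := IsPreprimitive.isCoatom_stabilizer_of_isPreprimitive G α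
    have hnle := not_le_stab hF hNn α htr hne
    have hinv : ∀ x : stabilizer G α, ∀ y ∈ Om1 F α \ {α}, x • y ∈ Om1 F α \ {α} := by
      rintro ⟨x, hx⟩ y ⟨⟨S, hS, s, hs, rfl⟩, hy⟩
      rw [mem_stabilizer_iff] at hx
      refine ⟨⟨cj x S, hF.conj S hS x, x * s * x⁻¹, ?_, ?_⟩, ?_⟩
      · rw [mem_cj]
        have : x⁻¹ * (x * s * x⁻¹) * x = s := by group
        rw [this]; exact hs
      · show (x * s * x⁻¹) • α = x • s • α
        rw [mul_smul, mul_smul]
        congr 2
        rw [inv_smul_eq_iff, hx]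
      · intro h
        apply hy
        have h1 : x • s • α = α := h
        rw [Set.mem_singleton_iff]
        rw [← eq_inv_smul_iff] at h1
        rw [h1, inv_smul_eq_iff, hx]
    let _ : MulAction (stabilizer G α) (Om1 F α \ {α} : Set Ω) := restr _ hinv
    have hfa : FaithfulSMul (stabilizer G α) (Om1 F α \ {α} : Set Ω) := by
      constructor
      intro x y hxy
      have h1 : (y : G)⁻¹ * (x : G) = 1 := by
        apply faithful_on hF α htr hnle
        · have hx := x.2
          have hy := y.2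
          rw [mem_stabilizer_iff] at hx hy
          rw [mul_smul, hx, inv_smul_eq_iff, hy]
        · intro ω hω
          by_cases hωα : ω = α
          · rw [hωα]
            have hx := x.2
            have hy := y.2
            rw [mem_stabilizer_iff] at hx hy
            rw [mul_smul, hx, inv_smul_eq_iff, hy]
          · have h2 : (x : G) • ω = (y : G) • ω := congrArg Subtype.val (hxy ⟨ω, hω, hωα⟩)
            rw [mul_smul, h2, inv_smul_smul]
      exact Subtype.ext (inv_mul_eq_one.mp h1).symm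
    have hΔ : (Om1 F α \ {α}).ncard < Nat.card Ω := by
      rw [← Set.ncard_univ]
      apply Set.ncard_lt_ncard _ (Set.toFinite _)
      rw [Set.ssubset_univ_iff]
      intro h
      have : α ∈ Om1 F α \ {α} := by rw [h]; trivial
      exact this.2 rfl
    have hcK : Nat.card (stabilizer G α) ≤ Nat.card G := Subgroup.card_le_card_group _
    have hneΔ : Nonempty (Om1 F α \ {α} : Set Ω) := by
      obtain ⟨S, hS⟩ := hF.ne
      obtain ⟨s, hs, hs'⟩ := SetLike.not_le_iff_exists.mp (hnle S hS)
      exact ⟨⟨s • α, ⟨S, hS, s, hs, rfl⟩, hs'⟩⟩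
    have h1 := hm (stabilizer G α) (Om1 F α \ {α} : Set Ω) (by rw [Nat.card_coe_set_eq]; omega)
    have h2 : 1 ≤ Nat.card (orbitRel.Quotient (stabilizer G α) (Om1 F α \ {α} : Set Ω)) := card_orbits_pos
    rw [Nat.card_coe_set_eq] at h1
    have h3 := prim_nonabelian hF α htr hne hco (by omega)
    omega

theorem good (m : ℕ) : Good.{v} m := by
  induction m with
  | zero =>
    intro G Ω _ _ _ _ _ hle
    have := Nat.card_pos (α := G)
    omega
  | succ m ih =>
    intro G Ω _ _ _ _ _ hle
    have hquot : Nat.card (orbitRel.Quotient G Ω) ≤ Nat.card Ω :=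
      Nat.card_le_card_of_surjective (Quotient.mk'' : Ω → orbitRel.Quotient G Ω) Quotient.mk''_surjective
    rcases subsingleton_or_nontrivial Ω with hs | hs
    · rw [trivial_of_subsingleton (G := G) (Ω := Ω)]
      omega
    · by_cases htr : IsPretransitive G Ω
      · by_cases hp : IsPreprimitive G Ω
        · exact prim_step ih G Ω hle
        · have : ∃ B : Set Ω, IsBlock G B ∧ ¬ IsTrivialBlock B := by
            by_contra hcon
            push Not at hcon
            exact hp { isTrivialBlock_of_isBlock := fun {B} hB => hcon B hB }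
          obtain ⟨B, hB, hB'⟩ := this
          rw [IsTrivialBlock, not_or] at hB'
          exact imprim_step ih G Ω hle B hB hB'.1 hB'.2
      · obtain ⟨α⟩ : Nonempty Ω := inferInstance
        apply intrans_step ih G Ω hle α
        intro h
        apply htr
        rw [isPretransitive_iff_orbit_eq_univ (G := G) α]
        exact h

theorem final {G : Type*} {Ω : Type v} [Group G] [Finite G] [MulAction G Ω] [FaithfulSMul G Ω] [Finite Ω] :
    3 * cl G + 4 * Nat.card (orbitRel.Quotient G Ω) ≤ 4 * Nat.card Ω := by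
  have hinj : Function.Injective (toPermHom G Ω) := toPerm_injective
  have h1 := cl_range_of_injective (toPermHom G Ω) hinj
  have h2 := good _ (toPermHom G Ω).range Ω le_rfl
  have h3 : Nat.card (orbitRel.Quotient G Ω) ≤ Nat.card (orbitRel.Quotient (toPermHom G Ω).range Ω) := by
    let f : orbitRel.Quotient (toPermHom G Ω).range Ω → orbitRel.Quotient G Ω := fun q =>
      Quotient.liftOn' q (fun y => (Quotient.mk'' y : orbitRel.Quotient G Ω)) (by
        intro a b hab
        obtain ⟨⟨_, g, rfl⟩, hk⟩ := hab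
        apply Quotient.sound'
        exact ⟨g, hk⟩)
    apply Nat.card_le_card_of_surjective f
    intro q
    induction q using Quotient.inductionOn' with | _ ω =>
    exact ⟨Quotient.mk'' ω, rfl⟩
  omega

end Cfsg.Agent.Lib.CompLengthMain2
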