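import Cfsg.Agent.Lib.Layer
import Cfsg.Agent.Lib.FTHall

set_option autoImplicit false

/-!
Groups in which cyclic `p`-subgroups of the same order are conjugate: the layer is quasisimple.
-/

namespace Cfsg.Agent.Lib.ConjCyclic

open Subgroup Cfsg Cfsg.Agent.Lib Cfsg.Agent.Lib.Components Cfsg.Agent.Lib.Layer

universe u

variable {G : Type u} [Group G] [Finite G]

/-- a quasisimple group whose central quotient has order prime to `p` -/
theorem exists_noncentral {K : Subgroup G} (p : ℕ) [Fact p.Prime]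
    (h : p ∣ (center K).index) :
    ∃ x ∈ K, (∃ k : ℕ, orderOf x = p ^ k) ∧ x ∉ centralizer (K : Set G) := by
  by_contra hcon
  push Not at hcon
  obtain ⟨P⟩ : Nonempty (Sylow p K) := inferInstance
  have hle : (P : Subgroup K) ≤ center K := by
    intro x hx
    obtain ⟨k, hk⟩ := (IsPGroup.iff_orderOf.1 P.2) ⟨x, hx⟩
    have h1 : orderOf (x : G) = p ^ k := by
      rw [Subgroup.orderOf_coe, ← hk]
      exact (Subgroup.orderOf_mk x hx).symm
    have h2 := hcon x x.2 ⟨k, h1⟩
    rw [mem_center_iff]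
    intro y
    have := mem_centralizer_iff.1 h2 y y.2
    exact Subtype.ext this
  have h3 : (center K).index ∣ (P : Subgroup K).index := Subgroup.index_dvd_of_le hle
  exact P.not_dvd_index (h.trans h3)

theorem component_conj_eq {K L : Subgroup G} (hK : IsComponent K) (hL : IsComponent L) (g : G)
    {y : G} (hy : y ∈ L) (hyL : y ∉ centralizer (L : Set G)) (hyK : y ∈ K.map (MulAut.conj g).toMonoidHom) :
    K.map (MulAut.conj g).toMonoidHom = L := by
  by_contra hne
  exact hyL (components_commute (isComponent_conj g hK) hL hne hyK)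

theorem solvable_of_comm {M : Type*} [Group M] (h : IsMulCommutative M) : Group.IsSolvable M :=
  Group.isSolvable_of_comm fun a b => h.is_comm.comm a b

theorem solvable_of_center {M : Type*} [Group M] (h : Group.IsSolvable (M ⧸ center M)) : Group.IsSolvable M :=
  haveI : Group.IsSolvable (center M) := solvable_of_comm inferInstance
  Group.isSolvable_of_ker_le_range (center M).subtype (QuotientGroup.mk' (center M))
    (by rw [QuotientGroup.ker_mk', Subgroup.range_subtype])

/-- the product of non-central elements of different components lies in no component -/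
theorem not_mem_component {K L M : Subgroup G} (hK : IsComponent K) (hL : IsComponent L) (hM : IsComponent M)
    (hKL : K ≠ L) {x y : G} (hx : x ∈ K) (hy : y ∈ L) (hxK : x ∉ centralizer (K : Set G))
    (hyL : y ∉ centralizer (L : Set G)) : x * y ∉ M := by
  intro hM'
  by_cases h1 : M = K
  · subst h1
    have : y ∈ M := (mul_mem_cancel_left hx).1 hM'
    exact hyL (components_commute hK hL hKL this)
  by_cases h2 : M = L
  · subst h2
    have : x ∈ M := (mul_mem_cancel_right hy).1 hM'
    exact hxK (components_commute hL hK (Ne.symm hKL) this)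
  have h3 : x * y ∈ centralizer (K : Set G) := components_commute hM hK h1 hM'
  have h4 : y ∈ centralizer (K : Set G) := components_commute hL hK (Ne.symm hKL) hy
  exact hxK ((mul_mem_cancel_right h4).1 h3)

section Main

variable (hP : ∀ (p : ℕ), p.Prime → ∀ A B : Subgroup G, IsCyclic ↥A → IsCyclic ↥B → IsPGroup p ↥A →
  Nat.card ↥A = Nat.card ↥B → ∃ g : G, B = A.map (MulAut.conj g).toMonoidHom)

include hP

theorem conj_of_order {p : ℕ} (hp : p.Prime) {x y : G} {k : ℕ} (hx : orderOf x = p ^ k) (hxy : orderOf x = orderOf y) :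
    ∃ g : G, y ∈ (zpowers x).map (MulAut.conj g).toMonoidHom := by
  obtain ⟨g, hg⟩ := hP p hp (zpowers x) (zpowers y) inferInstance inferInstance
    (IsPGroup.of_card (n := k) (by rw [Nat.card_zpowers, hx])) (by rw [Nat.card_zpowers, Nat.card_zpowers, hxy])
  exact ⟨g, hg ▸ mem_zpowers y⟩

theorem no_pair {K L : Subgroup G} (hK : IsComponent K) (hL : IsComponent L) (hKL : K ≠ L)
    {p : ℕ} (hp : p.Prime) {x y : G} {k : ℕ} (hx : x ∈ K) (hy : y ∈ L) (hxK : x ∉ centralizer (K : Set G))
    (hyL : y ∉ centralizer (L : Set G)) (hxp : orderOf x = p ^ k) (hxy : orderOf (x * y) = orderOf x) : False := by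
  obtain ⟨g, hg⟩ := conj_of_order hP hp hxp hxy.symm
  have hle : (zpowers x).map (MulAut.conj g).toMonoidHom ≤ K.map (MulAut.conj g).toMonoidHom :=
    Subgroup.map_mono (by rw [zpowers_le]; exact hx)
  exact not_mem_component hK hL (isComponent_conj g hK) hKL hx hy hxK hyL (hle hg)

theorem commute_of_components {K L : Subgroup G} (hK : IsComponent K) (hL : IsComponent L) (hKL : K ≠ L)
    {x y : G} (hx : x ∈ K) (hy : y ∈ L) : Commute x y := by
  have := mem_centralizer_iff.1 (components_commute hK hL hKL hx) y hy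
  exact this.symm

/-- the orders of non-central `p`-elements of different components are equal -/
theorem order_le {K L : Subgroup G} (hK : IsComponent K) (hL : IsComponent L) (hKL : K ≠ L)
    {p : ℕ} (hp : p.Prime) {x y : G} {k l : ℕ} (hx : x ∈ K) (hy : y ∈ L) (hxK : x ∉ centralizer (K : Set G))
    (hyL : y ∉ centralizer (L : Set G)) (hxp : orderOf x = p ^ k) (hyp : orderOf y = p ^ l) : ¬ l < k := by
  intro hlt
  apply no_pair hP hK hL hKL hp hx hy hxK hyL hxp
  have hc := commute_of_components hP hK hL hKL hx hy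
  have h1 : y ^ p ^ (k - 1) = 1 := by
    rw [← orderOf_dvd_iff_pow_eq_one, hyp]
    exact pow_dvd_pow _ (by omega)
  have hk : k = (k - 1) + 1 := by omega
  haveI := Fact.mk hp
  rw [hxp]
  conv_rhs => rw [hk]
  apply orderOf_eq_prime_pow
  · rw [hc.mul_pow, h1, mul_one]
    intro h2
    have h3 := orderOf_dvd_of_pow_eq_one h2
    rw [hxp] at h3
    have := (Nat.pow_dvd_pow_iff_le_right hp.one_lt).1 h3
    omega
  · rw [← hk, hc.mul_pow, ← hxp, pow_orderOf_eq_one, one_mul, hxp]
    rw [← orderOf_dvd_iff_pow_eq_one, hyp]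
    exact pow_dvd_pow _ (by omega)

theorem false_of_odd {K L : Subgroup G} (hK : IsComponent K) (hL : IsComponent L) (hKL : K ≠ L)
    {p : ℕ} (hp : p.Prime) (hp2 : p ≠ 2) {x y : G} {k l : ℕ} (hx : x ∈ K) (hy : y ∈ L)
    (hxK : x ∉ centralizer (K : Set G)) (hyL : y ∉ centralizer (L : Set G))
    (hxp : orderOf x = p ^ k) (hyp : orderOf y = p ^ l) : False := by
  have h1 := order_le hP hK hL hKL hp hx hy hxK hyL hxp hyp
  have h2 := order_le hP hL hK (Ne.symm hKL) hp hy hx hyL hxK hyp hxp
  obtain rfl : k = l := by omega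
  have hk : k ≠ 0 := by
    rintro rfl
    rw [pow_zero, orderOf_eq_one_iff] at hxp
    exact hxK (hxp ▸ one_mem _)
  haveI := Fact.mk hp
  have hc := commute_of_components hP hK hL hKL hx hy
  have hsucc : k = (k - 1) + 1 := by omega
  have key : ∀ z ∈ L, z ∉ centralizer (L : Set G) → orderOf z = p ^ k → x ^ p ^ (k - 1) * z ^ p ^ (k - 1) = 1 := by
    intro z hz hzL hzp
    have hc' := commute_of_components hP hK hL hKL hx hz
    by_contra hne
    apply no_pair hP hK hL hKL hp hx hz hxK hzL hxp
    rw [hxp]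
    conv_rhs => rw [hsucc]
    apply orderOf_eq_prime_pow
    · rw [hc'.mul_pow]
      exact hne
    · rw [← hsucc, hc'.mul_pow, ← hxp, pow_orderOf_eq_one, one_mul, hxp, ← hzp, pow_orderOf_eq_one]
  have e1 := key y hy hyL hyp
  have e2 := key y⁻¹ (inv_mem hy) (fun h => hyL (inv_mem_iff.1 h)) (by rw [orderOf_inv, hyp])
  have e3 : y ^ p ^ (k - 1) = (x ^ p ^ (k - 1))⁻¹ := eq_inv_of_mul_eq_one_right e1
  rw [inv_pow, e3, inv_inv, ← pow_two, ← pow_mul] at e2
  have h3 := orderOf_dvd_of_pow_eq_one e2
  rw [hxp] at h3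
  have h4 : Nat.Coprime (p ^ k) 2 := Nat.Coprime.pow_left _ ((Nat.coprime_primes hp Nat.prime_two).2 hp2)
  have h5 := h4.dvd_of_dvd_mul_right h3
  have := (Nat.pow_dvd_pow_iff_le_right hp.one_lt).1 h5
  omega

theorem component_unique (hFT : FTHall.FT.{u}) {K L : Subgroup G} (hK : IsComponent K) (hL : IsComponent L) : K = L := by
  by_contra hKL
  have hsol : ∀ {M : Subgroup G}, IsComponent M → ¬ Group.IsSolvable (M ⧸ center M) := by
    intro M hM h
    apply not_isSolvable_of_quasisimple hM.2
    haveI := h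
    exact solvable_of_center h
  have h2 : ∀ {M : Subgroup G}, IsComponent M → 2 ∣ (center M).index := by
    intro M hM
    by_contra h
    apply hsol hM
    apply hFT
    rw [← Subgroup.index_eq_card]
    exact Nat.odd_iff.2 (by omega)
  haveI : Fact (Nat.Prime 2) := ⟨Nat.prime_two⟩
  obtain ⟨x, hx, ⟨k, hxk⟩, hxK⟩ := exists_noncentral 2 (h2 hK)
  obtain ⟨y, hy, ⟨l, hyl⟩, hyL⟩ := exists_noncentral 2 (h2 hL)
  have h3 := order_le hP hK hL hKL Nat.prime_two hx hy hxK hyL hxk hyl
  have h4 := order_le hP hL hK (Ne.symm hKL) Nat.prime_two hy hx hyL hxK hyl hxk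
  obtain rfl : k = l := by omega
  obtain ⟨g, hg⟩ := conj_of_order hP Nat.prime_two hxk (hxk.trans hyl.symm)
  have hle : (zpowers x).map (MulAut.conj g).toMonoidHom ≤ K.map (MulAut.conj g).toMonoidHom :=
    Subgroup.map_mono (by rw [zpowers_le]; exact hx)
  have hKg := component_conj_eq hK hL g hy hyL (hle hg)
  -- an odd prime
  obtain ⟨p, hp, hp2, hpd⟩ : ∃ p : ℕ, p.Prime ∧ p ≠ 2 ∧ p ∣ (center K).index := by
    by_contra hcon
    push Not at hcon
    apply hsol hK
    have h5 : ∃ n, Nat.card (K ⧸ center K) = 2 ^ n := by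
      refine ⟨_, Nat.eq_prime_pow_of_unique_prime_dvd (p := 2) Nat.card_pos.ne' ?_⟩
      intro d hd hdd
      by_contra hne
      exact hcon d hd hne (by rwa [Subgroup.index_eq_card])
    obtain ⟨n, hn⟩ := h5
    have h6 : IsPGroup 2 (K ⧸ center K) := IsPGroup.of_card hn
    haveI := h6.isNilpotent
    infer_instance
  haveI := Fact.mk hp
  obtain ⟨a, ha, ⟨m, ham⟩, haK⟩ := exists_noncentral p hpd
  refine false_of_odd hP hK hL hKL hp hp2 (y := g * a * g⁻¹) ha ?_ haK ?_ ham (l := m) ?_
  · rw [← hKg]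
    exact ⟨a, ha, by simp⟩
  · intro h
    apply haK
    rw [mem_centralizer_iff] at h ⊢
    intro b hb
    have h7 := h (g * b * g⁻¹) (by rw [← hKg]; exact ⟨b, hb, by simp⟩)
    have h8 : g * (b * a) * g⁻¹ = g * (a * b) * g⁻¹ := by
      calc g * (b * a) * g⁻¹ = g * b * g⁻¹ * (g * a * g⁻¹) := by group
        _ = g * a * g⁻¹ * (g * b * g⁻¹) := h7
        _ = _ := by group
    exact mul_left_cancel (mul_right_cancel h8)
  · rw [← ham]
    exact MulEquiv.orderOf_eq (MulAut.conj g) a

theorem main (hFT : FTHall.FT.{u}) (hE : Cfsg.layer G ≠ ⊥) :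
    IsSimpleGroup (↥(Cfsg.layer G) ⧸ Subgroup.center ↥(Cfsg.layer G)) ∧
      ¬ IsMulCommutative (↥(Cfsg.layer G) ⧸ Subgroup.center ↥(Cfsg.layer G)) := by
  obtain ⟨K, hK⟩ : ∃ K : Subgroup G, IsComponent K := by
    by_contra hcon
    push Not at hcon
    apply hE
    rw [eq_bot_iff]
    exact sSup_le fun L hL => absurd hL (hcon L)
  have hl : Cfsg.layer G = K := by
    apply le_antisymm
    · exact sSup_le fun L hL => (component_unique hP hFT hL hK).le
    · exact component_le_layer hK
  rw [hl]
  refine ⟨hK.2.2, ?_⟩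
  intro hc
  apply not_isSolvable_of_quasisimple hK.2
  exact solvable_of_center (solvable_of_comm hc)

end Main

end Cfsg.Agent.Lib.ConjCyclic
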