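import Cfsg.Agent.Lib.SymAltSq
import Cfsg.Agent.Lib.NilChar
import Cfsg.Agent.Lib.CharpolyThree
import Cfsg.Agent.Lib.DefectZero

set_option autoImplicit false

/-!
# Nonprincipal irreducible characters with `χ(1) - χ(u) = 4` or `χ(u) = 0` (helper79)
-/

namespace Cfsg.Agent.Lib.ConstFour

open Cfsg Cfsg.Agent.Lib.CharBasic Cfsg.Agent.Lib.FrobSchur Cfsg.Agent.Lib.DefectZero
open scoped ComplexConjugate

variable {G : Type*} [Group G]

/-! ### Small determinants -/

theorem det_matRep {n : ℕ} (hperf : commutator G = ⊤) (ρ : Representation ℂ G (Fin n → ℂ)) (g : G) :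
    (matRep ρ g).det = 1 := by
  let f : G →* ℂ := Matrix.detMonoidHom.comp (matRep ρ)
  have h1 : IsCharacter G (fun g => f g) := isCharacter_of_hom f
  exact h1.eq_one_on_commutator (g := g) (by simp) (by rw [hperf]; exact Subgroup.mem_top g)

theorem eq_of_natCast {m n : ℕ} (h : (m : ℂ) = n) : m = n := by exact_mod_cast h

theorem exists_rep {χ : G → ℂ} (hχ : IsCharacter G χ) {n : ℕ} (h1 : χ 1 = n) :
    ∃ ρ : Representation ℂ G (Fin n → ℂ), χ = ρ.character := by
  obtain ⟨m, ρ, rfl⟩ := hχ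
  have h2 : m = n := by
    rw [Representation.char_one] at h1
    simp at h1
    exact_mod_cast h1
  subst h2
  exact ⟨ρ, rfl⟩

/-- Degree three, determinant one. -/
theorem sq_three (hperf : commutator G = ⊤) {χ : G → ℂ} (hχ : IsCharacter G χ) (h1 : χ 1 = 3)
    (g : G) : χ (g * g) = χ g ^ 2 - 2 * χ g⁻¹ := by
  obtain ⟨ρ, rfl⟩ := exists_rep hχ (n := 3) (by rw [h1]; norm_num)
  have hd := det_matRep hperf ρ g
  rw [← trace_matRep, ← trace_matRep, ← trace_matRep, map_mul]
  have h2 : matRep ρ g⁻¹ = (matRep ρ g).adjugate := by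
    have h3 : matRep ρ g * matRep ρ g⁻¹ = 1 := by rw [← map_mul, mul_inv_cancel, map_one]
    have h4 : (matRep ρ g).adjugate * matRep ρ g = 1 := by rw [Matrix.adjugate_mul, hd, one_smul]
    calc matRep ρ g⁻¹ = ((matRep ρ g).adjugate * matRep ρ g) * matRep ρ g⁻¹ := by rw [h4, one_mul]
      _ = _ := by rw [mul_assoc, h3, mul_one]
  rw [h2, CharpolyThree.trace_adjugate]
  generalize matRep ρ g = M
  rw [Matrix.trace_fin_three, Matrix.trace_fin_three, CharpolyThree.e2]
  simp only [Matrix.mul_apply, Fin.sum_univ_three]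
  ring

/-- Degree two, determinant one. -/
theorem sq_two (hperf : commutator G = ⊤) {χ : G → ℂ} (hχ : IsCharacter G χ) (h1 : χ 1 = 2)
    (g : G) : χ (g * g) = χ g ^ 2 - 2 := by
  obtain ⟨ρ, rfl⟩ := exists_rep hχ (n := 2) (by rw [h1]; norm_num)
  have hd := det_matRep hperf ρ g
  rw [← trace_matRep, ← trace_matRep, map_mul]
  generalize matRep ρ g = M at hd ⊢
  rw [Matrix.det_fin_two] at hd
  rw [Matrix.trace_fin_two, Matrix.trace_fin_two]
  simp only [Matrix.mul_apply, Fin.sum_univ_two]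
  linear_combination (-2) * hd

/-! ### Values equal to the degree -/

theorem norm_le [Finite G] {χ : G → ℂ} (hχ : IsCharacter G χ) (x : G) : ‖χ x‖ ≤ (χ 1).re := by
  obtain ⟨n, ρ, rfl⟩ := hχ
  have := CharValues.norm_character_le ρ x
  rw [Representation.char_one]
  simpa using this

theorem re_le [Finite G] {χ : G → ℂ} (hχ : IsCharacter G χ) (x : G) : (χ x).re ≤ (χ 1).re :=
  (Complex.re_le_norm _).trans (norm_le hχ x)

theorem eq_of_re [Finite G] {χ : G → ℂ} (hχ : IsCharacter G χ) {x : G} (h : (χ x).re = (χ 1).re) :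
    χ x = χ 1 := by
  have h1 := norm_le hχ x
  have h2 : (χ 1).im = 0 := by
    obtain ⟨n, hn⟩ := hχ.exists_degree
    rw [hn]; simp
  have h3 : (χ x).im = 0 := by
    have h4 := Complex.sq_norm (χ x)
    rw [Complex.normSq_apply] at h4
    have h5 : ‖χ x‖ = (χ 1).re := le_antisymm h1 (by rw [← h]; exact Complex.re_le_norm _)
    rw [h5, h] at h4
    have h6 : (χ x).im * (χ x).im = 0 := by nlinarith
    exact mul_self_eq_zero.mp h6
  exact Complex.ext h (by rw [h2, h3])

/-- If a sum of two characters takes its degree at `x`, so does each. -/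
theorem eq_left_of_add [Finite G] {χ ψ : G → ℂ} (hχ : IsCharacter G χ) (hψ : IsCharacter G ψ)
    {x : G} (h : (χ + ψ) x = (χ + ψ) 1) : χ x = χ 1 := by
  apply eq_of_re hχ
  have h1 := congrArg Complex.re h
  simp only [Pi.add_apply, Complex.add_re] at h1
  have h2 := re_le hχ x
  have h3 := re_le hψ x
  linarith

theorem eq_of_constituent [Fintype G] {θ χ : G → ℂ} (hθ : IsCharacter G θ)
    (hχ : IsIrrCharacter G χ) (h : classInner θ χ ≠ 0) {x : G} (hx : θ x = θ 1) : χ x = χ 1 := by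
  have h1 := hθ.sub_constituent hχ h
  have h2 : χ + (θ - χ) = θ := by ring
  apply eq_left_of_add hχ.isCharacter h1
  rw [h2, hx]

/-! ### The hypothesis -/

/-- the hypothesis -/
def Hyp (u : G) : Prop := ∀ χ : IrrCharacter G, (χ : G → ℂ) ≠ (fun _ => (1 : ℂ)) →
  ((χ : G → ℂ) 1 - (χ : G → ℂ) u = 4 ∨ (χ : G → ℂ) u = 0)

theorem Hyp.perfect [Finite G] {u : G} (h : Hyp u) : commutator G = ⊤ := by
  classical
  by_contra hnp
  have hidx : 1 < Nat.card {χ : IrrCharacter G // (χ : G → ℂ) 1 = 1} := by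
    rw [card_linear]
    have h1 : (commutator G).index ≠ 1 := by rwa [Ne, Subgroup.index_eq_one]
    have h2 : (commutator G).index ≠ 0 := Subgroup.index_ne_zero_of_finite
    omega
  have hnt : Nontrivial {χ : IrrCharacter G // (χ : G → ℂ) 1 = 1} :=
    Finite.one_lt_card_iff_nontrivial.mp hidx
  obtain ⟨⟨lam, hlam1⟩, hlamne⟩ := exists_ne
    (⟨⟨fun _ => 1, isCharacter_trivial⟩, rfl⟩ : {χ : IrrCharacter G // (χ : G → ℂ) 1 = 1})
  have hlamne' : (lam : G → ℂ) ≠ (fun _ => 1) := fun h => hlamne (Subtype.ext (Subtype.ext h))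
  rcases h lam hlamne' with h1 | h1
  · rw [hlam1] at h1
    have h2 : (lam : G → ℂ) u = -3 := by linear_combination -h1
    have h3 := lam.2.isCharacter.norm_of_linear hlam1 u
    rw [h2] at h3
    norm_num at h3
  · exact lam.2.isCharacter.ne_zero_of_linear hlam1 u h1

variable [Fintype G]

/-- sum of a multiset of irreducible characters -/
noncomputable def S (s : Multiset (IrrCharacter G)) : G → ℂ := (s.map (fun ψ => (ψ : G → ℂ))).sum

omit [Fintype G] in
theorem S_cons (a : IrrCharacter G) (s : Multiset (IrrCharacter G)) : S (a ::ₘ s) = a + S s := by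
  simp [S]

omit [Fintype G] in
theorem S_zero : S (0 : Multiset (IrrCharacter G)) = 0 := by simp [S]

theorem isCharacter_S (s : Multiset (IrrCharacter G)) : IsCharacter G (S s) := by
  induction s using Multiset.induction_on with
  | empty => rw [S_zero]; exact isCharacter_zero
  | cons a s ih => rw [S_cons]; exact a.2.isCharacter.add ih

theorem inner_mul (α β γ : G → ℂ) :
    classInner (α * β) γ = classInner α ((fun g => conj (β g)) * γ) := by
  rw [CharBasic.classInner_def, CharBasic.classInner_def]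
  congr 1
  apply Finset.sum_congr rfl
  intro g _
  simp only [Pi.mul_apply, map_mul, Complex.conj_conj]
  ring

theorem inner_mul_real {α β γ : G → ℂ} (hβ : ∀ g, conj (β g) = β g) :
    classInner (α * β) γ = classInner α (β * γ) := by
  rw [inner_mul]
  congr 2
  funext g
  exact hβ g

/-- A decomposition without principal constituents, `x` in all the kernels. -/
structure Dec (x : G) (θ : G → ℂ) (s : Multiset (IrrCharacter G)) : Prop where
  eq : θ = S s
  ne : ∀ χ ∈ s, (χ : G → ℂ) ≠ (fun _ => (1 : ℂ))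
  val : ∀ χ ∈ s, (χ : G → ℂ) x = (χ : G → ℂ) 1

theorem exists_dec {x : G} {θ : G → ℂ} (hθ : IsCharacter G θ)
    (h1 : classInner θ (fun _ => (1 : ℂ)) = 0) (hx : θ x = θ 1) :
    ∃ s, Dec x θ s := by
  obtain ⟨s, hs⟩ := hθ.exists_multiset
  refine ⟨s, hs, ?_, ?_⟩
  · intro χ hχ h2
    obtain ⟨t, rfl⟩ := Multiset.exists_cons_of_mem hχ
    have h3 : θ = χ + S t := by rw [← S_cons]; exact hs
    rw [h3, classInner_add_left] at h1
    rw [h2] at h1
    obtain ⟨m, hm⟩ := (isCharacter_S t).classInner_nat (isCharacter_trivial (G := G)).isCharacter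
    rw [hm, (isCharacter_trivial (G := G)).classInner_self] at h1
    have : (1 + m : ℕ) = 0 := by exact_mod_cast h1
    omega
  · intro χ hχ
    obtain ⟨t, rfl⟩ := Multiset.exists_cons_of_mem hχ
    have h3 : θ = χ + S t := by rw [← S_cons]; exact hs
    rw [h3] at hx
    exact eq_left_of_add χ.2.isCharacter (isCharacter_S t) hx

/-- the difference -/
noncomputable def ex (u : G) (χ : IrrCharacter G) : ℕ := by
  classical exact if (χ : G → ℂ) 1 - (χ : G → ℂ) u = 4 then 4 else charDegree (χ : G → ℂ)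

omit [Fintype G] in
theorem ex_cases (u : G) (χ : IrrCharacter G) : ex u χ = 4 ∨ ex u χ = charDegree (χ : G → ℂ) := by
  unfold ex
  split_ifs
  · left; rfl
  · right; rfl

omit [Fintype G] in
theorem Hyp.ex_eq {u : G} (h : Hyp u) {χ : IrrCharacter G} (hχ : (χ : G → ℂ) ≠ (fun _ => (1 : ℂ))) :
    (χ : G → ℂ) 1 - (χ : G → ℂ) u = ex u χ := by
  unfold ex
  split_ifs with h1
  · rw [h1]; norm_num
  · rcases h χ hχ with h2 | h2
    · exact absurd h2 h1
    · rw [h2, sub_zero, charDegree_eq χ.2.isCharacter]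

theorem inner_one_mul_conj {χ : G → ℂ} (hχ : IsIrrCharacter G χ) :
    classInner (χ * (fun g => conj (χ g))) (fun _ => (1 : ℂ)) = 1 := by
  rw [inner_mul]
  have : ((fun g => conj ((fun g => conj (χ g)) g)) * (fun _ => (1 : ℂ)) : G → ℂ) = χ := by
    funext g
    simp
  rw [this, hχ.classInner_self]

/-- `u` is never scalar. -/
theorem Hyp.no_scalar {u : G} (h : Hyp u) {χ : G → ℂ} (hχ : IsIrrCharacter G χ)
    (hu : χ u * conj (χ u) = χ 1 * conj (χ 1)) : χ 1 = 1 := by
  set θ : G → ℂ := χ * (fun g => conj (χ g)) with hθdef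
  have hθ : IsCharacter G θ := hχ.isCharacter.mul hχ.conj.isCharacter
  obtain ⟨s, hs⟩ := hθ.exists_multiset
  have hval : θ u = θ 1 := hu
  have hall : ∀ ψ ∈ s, (ψ : G → ℂ) = (fun _ => (1 : ℂ)) := by
    intro ψ hψ
    obtain ⟨t, rfl⟩ := Multiset.exists_cons_of_mem hψ
    have h3 : θ = ψ + S t := by rw [← S_cons]; exact hs
    have h4 : (ψ : G → ℂ) u = (ψ : G → ℂ) 1 := by
      apply eq_left_of_add ψ.2.isCharacter (isCharacter_S t)
      rw [← h3, hval]
    by_contra hne
    rcases h ψ hne with h5 | h5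
    · rw [h4, sub_self] at h5; norm_num at h5
    · rw [h4] at h5; exact ψ.2.one_ne_zero h5
  have hS : ∀ t : Multiset (IrrCharacter G), (∀ ψ ∈ t, (ψ : G → ℂ) = (fun _ => (1 : ℂ))) →
      S t = fun _ => (Multiset.card t : ℂ) := by
    intro t
    induction t using Multiset.induction_on with
    | empty => intro _; rw [S_zero]; funext g; simp
    | cons a t ih =>
      intro ht
      rw [S_cons, ih (fun ψ hψ => ht ψ (Multiset.mem_cons_of_mem hψ)), ht a (Multiset.mem_cons_self a t)]
      funext g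
      simp [add_comm]
  have h5 : θ = fun _ => (Multiset.card s : ℂ) := hs.trans (hS s hall)
  have h6 : classInner θ (fun _ => (1 : ℂ)) = Multiset.card s := by
    have : θ = (Multiset.card s : ℂ) • (fun _ : G => (1 : ℂ)) := by
      rw [h5]; funext g; simp
    rw [this, classInner_smul_left, (isCharacter_trivial (G := G)).classInner_self, mul_one]
  rw [inner_one_mul_conj hχ] at h6
  have h7 := congrFun h5 1
  rw [← h6] at h7
  change χ 1 * conj (χ 1) = 1 at h7
  obtain ⟨n, hn0, hn⟩ := hχ.exists_degree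
  rw [hn] at h7 ⊢
  simp only [map_natCast] at h7
  have h8 : n * n = 1 := by exact_mod_cast h7
  have h9 : n = 1 := Nat.eq_one_of_mul_eq_one_right h8
  rw [h9]; norm_num

theorem Hyp.ne_one_of_ne {u : G} (h : Hyp u) {χ : IrrCharacter G}
    (hχ : (χ : G → ℂ) ≠ (fun _ => (1 : ℂ))) : (χ : G → ℂ) 1 ≠ 1 := by
  intro h1
  rcases h χ hχ with h2 | h2
  · rw [h1] at h2
    have h3 : (χ : G → ℂ) u = -3 := by linear_combination -h2
    have h4 := χ.2.isCharacter.norm_of_linear h1 u
    rw [h3] at h4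
    norm_num at h4
  · exact χ.2.isCharacter.ne_zero_of_linear h1 u h2

/-- Degree two characters have value zero at `u`. -/
theorem Hyp.deg_two {u : G} (h : Hyp u) {χ : IrrCharacter G} (h2 : (χ : G → ℂ) 1 = 2) :
    (χ : G → ℂ) u = 0 := by
  have hχ : (χ : G → ℂ) ≠ (fun _ => (1 : ℂ)) := by
    intro h3
    rw [h3] at h2
    norm_num at h2
  rcases h χ hχ with h3 | h3
  · exfalso
    have h4 : (χ : G → ℂ) u = -2 := by rw [h2] at h3; linear_combination -h3
    have h5 := h.no_scalar χ.2 (by rw [h4, h2]; simp)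
    rw [h2] at h5
    norm_num at h5
  · exact h3

theorem Hyp.three_le {u : G} (h : Hyp u) {χ : IrrCharacter G} (hχ : (χ : G → ℂ) ≠ (fun _ => (1 : ℂ)))
    (hx : (χ : G → ℂ) (u * u) = (χ : G → ℂ) 1) : 3 ≤ charDegree (χ : G → ℂ) := by
  have h1 := charDegree_pos χ.2
  have h2 : charDegree (χ : G → ℂ) ≠ 1 := by
    intro h3
    apply h.ne_one_of_ne hχ
    rw [← charDegree_eq χ.2.isCharacter, h3]; norm_num
  have h3 : charDegree (χ : G → ℂ) ≠ 2 := by
    intro h3
    have h4 : (χ : G → ℂ) 1 = 2 := by rw [← charDegree_eq χ.2.isCharacter, h3]; norm_num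
    have h5 := sq_two h.perfect χ.2.isCharacter h4 u
    rw [hx, h4, h.deg_two h4] at h5
    norm_num at h5
  omega

theorem Dec.one {x : G} {θ : G → ℂ} {s : Multiset (IrrCharacter G)} (hd : Dec x θ s) :
    θ 1 = ((s.map (fun χ : IrrCharacter G => charDegree (χ : G → ℂ))).sum : ℕ) := by
  rw [hd.eq]
  clear hd
  induction s using Multiset.induction_on with
  | empty => simp [S_zero]
  | cons a s ih =>
    rw [S_cons, Pi.add_apply, ih, Multiset.map_cons, Multiset.sum_cons, Nat.cast_add,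
      charDegree_eq a.2.isCharacter]

theorem Dec.diff {u x : G} (h : Hyp u) {θ : G → ℂ} {s : Multiset (IrrCharacter G)} (hd : Dec x θ s) :
    θ 1 - θ u = ((s.map (fun χ => ex u χ)).sum : ℕ) := by
  rw [hd.eq]
  have hne := hd.ne
  clear hd
  induction s using Multiset.induction_on with
  | empty => simp [S_zero]
  | cons a s ih =>
    have h1 := ih (fun χ hχ => hne χ (Multiset.mem_cons_of_mem hχ))
    have h2 := h.ex_eq (hne a (Multiset.mem_cons_self a s))
    rw [S_cons, Pi.add_apply, Pi.add_apply, Multiset.map_cons, Multiset.sum_cons, Nat.cast_add,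
      ← h1, ← h2]
    ring

theorem Dec.card_le {u : G} (h : Hyp u) {θ : G → ℂ} {s : Multiset (IrrCharacter G)}
    (hd : Dec (u * u) θ s) : 3 * Multiset.card s ≤ (s.map (fun χ : IrrCharacter G => charDegree (χ : G → ℂ))).sum := by
  have hne := hd.ne
  have hv := hd.val
  clear hd
  induction s using Multiset.induction_on with
  | empty => simp
  | cons a s ih =>
    have h1 := ih (fun χ hχ => hne χ (Multiset.mem_cons_of_mem hχ))
      (fun χ hχ => hv χ (Multiset.mem_cons_of_mem hχ))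
    have h2 := h.three_le (hne a (Multiset.mem_cons_self a s)) (hv a (Multiset.mem_cons_self a s))
    rw [Multiset.card_cons, Multiset.map_cons, Multiset.sum_cons]
    omega

/-- small cases: irreducible -/
theorem Hyp.single {u : G} (h : Hyp u) {θ : G → ℂ} (hθ : IsCharacter G θ)
    (h1 : classInner θ (fun _ => (1 : ℂ)) = 0) (hx : θ (u * u) = θ 1) {n : ℕ} (hn : θ 1 = n)
    (hn0 : 0 < n) (hn6 : n ≤ 6) (hd : θ 1 - θ u = 4) : IsIrrCharacter G θ := by
  obtain ⟨s, hs⟩ := exists_dec hθ h1 hx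
  have e1 := hs.one
  have e2 := hs.diff h
  have e3 := hs.card_le h
  rw [hn] at e1
  rw [hd] at e2
  have e1' := eq_of_natCast e1
  have e2' : 4 = (s.map (fun χ => ex u χ)).sum := by exact_mod_cast e2
  rw [← e1'] at e3
  have hcard : Multiset.card s ≤ 2 := by omega
  have h3 : Multiset.card s = 0 ∨ Multiset.card s = 1 ∨ Multiset.card s = 2 := by omega
  rcases h3 with h3 | h3 | h3
  · rw [Multiset.card_eq_zero] at h3
    rw [h3] at e1'
    simp at e1'
    omega
  · obtain ⟨a, rfl⟩ := Multiset.card_eq_one.mp h3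
    have h4 : θ = a := by rw [hs.eq]; simp [S]
    rw [h4]
    exact a.2
  · exfalso
    obtain ⟨a, b, rfl⟩ := Multiset.card_eq_two.mp h3
    have ha := h.three_le (hs.ne a (by simp)) (hs.val a (by simp))
    have hb := h.three_le (hs.ne b (by simp)) (hs.val b (by simp))
    have ca := ex_cases u a
    have cb := ex_cases u b
    simp at e1' e2'
    omega

theorem Hyp.val_of_ex {u : G} (h : Hyp u) {χ : IrrCharacter G} (hχ : (χ : G → ℂ) ≠ (fun _ => (1 : ℂ)))
    {d e : ℕ} (hd : charDegree (χ : G → ℂ) = d) (he : ex u χ = e) :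
    (χ : G → ℂ) 1 = d ∧ (χ : G → ℂ) u = d - e := by
  have h1 := h.ex_eq hχ
  have h2 := charDegree_eq χ.2.isCharacter
  rw [hd] at h2
  rw [he, ← h2] at h1
  exact ⟨h2.symm, by linear_combination -h1⟩

/-- degree seven, difference eight. -/
theorem Hyp.seven {u : G} (h : Hyp u) {θ : G → ℂ} (hθ : IsCharacter G θ)
    (h1 : classInner θ (fun _ => (1 : ℂ)) = 0) (hx : θ (u * u) = θ 1) (hn : θ 1 = 7)
    (hd : θ 1 - θ u = 8) : ∃ X Z : G → ℂ, IsIrrCharacter G X ∧ IsIrrCharacter G Z ∧ θ = X + Z ∧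
      X 1 = 3 ∧ X u = -1 ∧ Z 1 = 4 ∧ Z u = 0 := by
  obtain ⟨s, hs⟩ := exists_dec hθ h1 hx
  have e1 := hs.one
  have e2 := hs.diff h
  have e3 := hs.card_le h
  rw [hn] at e1
  rw [hd] at e2
  have e1' : 7 = (s.map (fun χ : IrrCharacter G => charDegree (χ : G → ℂ))).sum := by exact_mod_cast e1
  have e2' : 8 = (s.map (fun χ => ex u χ)).sum := by exact_mod_cast e2
  rw [← e1'] at e3
  have h3 : Multiset.card s = 0 ∨ Multiset.card s = 1 ∨ Multiset.card s = 2 := by omega
  rcases h3 with h3 | h3 | h3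
  · rw [Multiset.card_eq_zero] at h3
    rw [h3] at e1'
    simp at e1'
  · obtain ⟨a, rfl⟩ := Multiset.card_eq_one.mp h3
    have ca := ex_cases u a
    simp at e1' e2'
    omega
  · obtain ⟨a, b, rfl⟩ := Multiset.card_eq_two.mp h3
    have ha := h.three_le (hs.ne a (by simp)) (hs.val a (by simp))
    have hb := h.three_le (hs.ne b (by simp)) (hs.val b (by simp))
    have ca := ex_cases u a
    have cb := ex_cases u b
    have hab : θ = (a : G → ℂ) + b := by rw [hs.eq]; simp [S]
    simp only [Multiset.insert_eq_cons, Multiset.map_cons, Multiset.map_singleton, Multiset.sum_cons,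
      Multiset.sum_singleton] at e1' e2'
    have hcase : (charDegree (a : G → ℂ) = 3 ∧ charDegree (b : G → ℂ) = 4 ∧ ex u a = 4 ∧ ex u b = 4) ∨
        (charDegree (a : G → ℂ) = 4 ∧ charDegree (b : G → ℂ) = 3 ∧ ex u a = 4 ∧ ex u b = 4) := by omega
    rcases hcase with ⟨k1, k2, k3, k4⟩ | ⟨k1, k2, k3, k4⟩
    · obtain ⟨a1, a2⟩ := h.val_of_ex (hs.ne a (by simp)) k1 k3
      obtain ⟨b1, b2⟩ := h.val_of_ex (hs.ne b (by simp)) k2 k4
      refine ⟨a, b, a.2, b.2, hab, ?_, ?_, ?_, ?_⟩
      · rw [a1]; norm_num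
      · rw [a2]; norm_num
      · rw [b1]; norm_num
      · rw [b2]; norm_num
    · obtain ⟨a1, a2⟩ := h.val_of_ex (hs.ne a (by simp)) k1 k3
      obtain ⟨b1, b2⟩ := h.val_of_ex (hs.ne b (by simp)) k2 k4
      refine ⟨b, a, b.2, a.2, by rw [hab, add_comm], ?_, ?_, ?_, ?_⟩
      · rw [b1]; norm_num
      · rw [b2]; norm_num
      · rw [a1]; norm_num
      · rw [a2]; norm_num

/-- degree six, difference eight. -/
theorem Hyp.six {u : G} (h : Hyp u) {θ : G → ℂ} (hθ : IsCharacter G θ)
    (h1 : classInner θ (fun _ => (1 : ℂ)) = 0) (hx : θ (u * u) = θ 1) (hn : θ 1 = 6)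
    (hd : θ 1 - θ u = 8) : ∃ X Z : G → ℂ, IsIrrCharacter G X ∧ IsIrrCharacter G Z ∧ θ = X + Z ∧
      X 1 = 3 ∧ Z 1 = 3 := by
  obtain ⟨s, hs⟩ := exists_dec hθ h1 hx
  have e1 := hs.one
  have e2 := hs.diff h
  have e3 := hs.card_le h
  rw [hn] at e1
  rw [hd] at e2
  have e1' : 6 = (s.map (fun χ : IrrCharacter G => charDegree (χ : G → ℂ))).sum := by exact_mod_cast e1
  have e2' : 8 = (s.map (fun χ => ex u χ)).sum := by exact_mod_cast e2
  rw [← e1'] at e3
  have h3 : Multiset.card s = 0 ∨ Multiset.card s = 1 ∨ Multiset.card s = 2 := by omega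
  rcases h3 with h3 | h3 | h3
  · rw [Multiset.card_eq_zero] at h3
    rw [h3] at e1'
    simp at e1'
  · obtain ⟨a, rfl⟩ := Multiset.card_eq_one.mp h3
    have ca := ex_cases u a
    simp at e1' e2'
    omega
  · obtain ⟨a, b, rfl⟩ := Multiset.card_eq_two.mp h3
    have ha := h.three_le (hs.ne a (by simp)) (hs.val a (by simp))
    have hb := h.three_le (hs.ne b (by simp)) (hs.val b (by simp))
    have hab : θ = (a : G → ℂ) + b := by rw [hs.eq]; simp [S]
    simp only [Multiset.insert_eq_cons, Multiset.map_cons, Multiset.map_singleton, Multiset.sum_cons,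
      Multiset.sum_singleton] at e1' e2'
    have k1 : charDegree (a : G → ℂ) = 3 := by omega
    have k2 : charDegree (b : G → ℂ) = 3 := by omega
    refine ⟨a, b, a.2, b.2, hab, ?_, ?_⟩
    · rw [← charDegree_eq a.2.isCharacter, k1]; norm_num
    · rw [← charDegree_eq b.2.isCharacter, k2]; norm_num

/-- degree ten, difference twelve. -/
theorem Hyp.ten {u : G} (h : Hyp u) {θ : G → ℂ} (hθ : IsCharacter G θ)
    (h1 : classInner θ (fun _ => (1 : ℂ)) = 0) (hx : θ (u * u) = θ 1) (hn : θ 1 = 10)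
    (hd : θ 1 - θ u = 12) : ∃ X Y Z : G → ℂ, IsIrrCharacter G X ∧ IsIrrCharacter G Y ∧
      IsIrrCharacter G Z ∧ θ = X + Y + Z ∧ X 1 = 3 ∧ Y 1 = 3 ∧ Z 1 = 4 ∧ Z u = 0 := by
  obtain ⟨s, hs⟩ := exists_dec hθ h1 hx
  have e1 := hs.one
  have e2 := hs.diff h
  have e3 := hs.card_le h
  rw [hn] at e1
  rw [hd] at e2
  have e1' : 10 = (s.map (fun χ : IrrCharacter G => charDegree (χ : G → ℂ))).sum := by exact_mod_cast e1
  have e2' : 12 = (s.map (fun χ => ex u χ)).sum := by exact_mod_cast e2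
  rw [← e1'] at e3
  have h3 : Multiset.card s = 0 ∨ Multiset.card s = 1 ∨ Multiset.card s = 2 ∨ Multiset.card s = 3 := by
    omega
  rcases h3 with h3 | h3 | h3 | h3
  · rw [Multiset.card_eq_zero] at h3
    rw [h3] at e1'
    simp at e1'
  · obtain ⟨a, rfl⟩ := Multiset.card_eq_one.mp h3
    have ca := ex_cases u a
    simp at e1' e2'
    omega
  · obtain ⟨a, b, rfl⟩ := Multiset.card_eq_two.mp h3
    have ha := h.three_le (hs.ne a (by simp)) (hs.val a (by simp))
    have hb := h.three_le (hs.ne b (by simp)) (hs.val b (by simp))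
    have ca := ex_cases u a
    have cb := ex_cases u b
    simp only [Multiset.insert_eq_cons, Multiset.map_cons, Multiset.map_singleton, Multiset.sum_cons,
      Multiset.sum_singleton] at e1' e2'
    omega
  · obtain ⟨a, b, c, rfl⟩ := Multiset.card_eq_three.mp h3
    have ha := h.three_le (hs.ne a (by simp)) (hs.val a (by simp))
    have hb := h.three_le (hs.ne b (by simp)) (hs.val b (by simp))
    have hc := h.three_le (hs.ne c (by simp)) (hs.val c (by simp))
    have ca := ex_cases u a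
    have cb := ex_cases u b
    have cc := ex_cases u c
    have hab : θ = (a : G → ℂ) + b + c := by rw [hs.eq]; simp [S, add_assoc]
    simp only [Multiset.insert_eq_cons, Multiset.map_cons, Multiset.map_singleton, Multiset.sum_cons,
      Multiset.sum_singleton] at e1' e2'
    have key : ∀ a b c : IrrCharacter G, (c : G → ℂ) ≠ (fun _ => (1 : ℂ)) →
        charDegree (a : G → ℂ) = 3 → charDegree (b : G → ℂ) = 3 →
        charDegree (c : G → ℂ) = 4 → ex u c = 4 → θ = (a : G → ℂ) + b + c →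
        ∃ X Y Z : G → ℂ, IsIrrCharacter G X ∧ IsIrrCharacter G Y ∧
        IsIrrCharacter G Z ∧ θ = X + Y + Z ∧ X 1 = 3 ∧ Y 1 = 3 ∧ Z 1 = 4 ∧ Z u = 0 := by
      intro a b c hcne k1 k2 k3 k4 habc
      obtain ⟨c1, c2⟩ := h.val_of_ex hcne k3 k4
      refine ⟨a, b, c, a.2, b.2, c.2, habc, ?_, ?_, ?_, ?_⟩
      · rw [← charDegree_eq a.2.isCharacter, k1]; norm_num
      · rw [← charDegree_eq b.2.isCharacter, k2]; norm_num
      · rw [c1]; norm_num
      · rw [c2]; norm_num
    have hcase : (charDegree (a : G → ℂ) = 3 ∧ charDegree (b : G → ℂ) = 3 ∧ charDegree (c : G → ℂ) = 4 ∧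
        ex u c = 4) ∨ (charDegree (a : G → ℂ) = 3 ∧ charDegree (c : G → ℂ) = 3 ∧
        charDegree (b : G → ℂ) = 4 ∧ ex u b = 4) ∨ (charDegree (c : G → ℂ) = 3 ∧
        charDegree (b : G → ℂ) = 3 ∧ charDegree (a : G → ℂ) = 4 ∧ ex u a = 4) := by omega
    rcases hcase with ⟨k1, k2, k3, k4⟩ | ⟨k1, k2, k3, k4⟩ | ⟨k1, k2, k3, k4⟩
    · exact key a b c (hs.ne c (by simp)) k1 k2 k3 k4 hab
    · exact key a c b (hs.ne b (by simp)) k1 k2 k3 k4 (by rw [hab]; ring)
    · exact key c b a (hs.ne a (by simp)) k1 k2 k3 k4 (by rw [hab]; ring)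

end Cfsg.Agent.Lib.ConstFour
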