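import Cfsg.Agent.Lib.ConstFour

set_option autoImplicit false

/-!
# The characters of degree three (helper79)
-/

namespace Cfsg.Agent.Lib.ConstFour

open Cfsg Cfsg.Agent.Lib.CharBasic Cfsg.Agent.Lib.FrobSchur Cfsg.Agent.Lib.DefectZero
open scoped ComplexConjugate

variable {G : Type*} [Group G] [Fintype G]

omit [Fintype G] in
theorem one_irr : IsIrrCharacter G (1 : G → ℂ) := isIrrCharacter_one

theorem Hyp.exists_three {u : G} (h : Hyp u) (hu : u ≠ 1) :
    ∃ V : G → ℂ, IsIrrCharacter G V ∧ V 1 = 3 ∧ V u = -1 := by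
  classical
  by_contra hcon
  push Not at hcon
  have h1 := sum_degree_mul u hu
  let χ₀ : IrrCharacter G := ⟨fun _ => 1, isCharacter_trivial⟩
  rw [← Finset.add_sum_erase _ _ (Finset.mem_univ χ₀)] at h1
  have h3 := congrArg Complex.re h1
  rw [Complex.add_re, Complex.re_sum] at h3
  have h4 : 0 ≤ ∑ χ ∈ Finset.univ.erase χ₀, ((χ : G → ℂ) 1 * (χ : G → ℂ) u).re := by
    apply Finset.sum_nonneg
    intro χ hχ
    have hne : (χ : G → ℂ) ≠ (fun _ => (1 : ℂ)) := fun h3 =>
      (Finset.ne_of_mem_erase hχ) (Subtype.ext h3)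
    rcases h χ hne with h5 | h5
    · have hd := charDegree_eq χ.2.isCharacter
      have h6 : (χ : G → ℂ) u = charDegree (χ : G → ℂ) - 4 := by rw [hd]; linear_combination -h5
      have hpos := charDegree_pos χ.2
      have k1 : charDegree (χ : G → ℂ) ≠ 1 := by
        intro h3
        apply h.ne_one_of_ne hne
        rw [← hd, h3]; norm_num
      have k2 : charDegree (χ : G → ℂ) ≠ 2 := by
        intro h3
        have h7 := h.deg_two (χ := χ) (by rw [← hd, h3]; norm_num)
        rw [h6, h3] at h7
        norm_num at h7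
      have k3 : charDegree (χ : G → ℂ) ≠ 3 := by
        intro h3
        apply hcon χ χ.2 (by rw [← hd, h3]; norm_num)
        rw [h6, h3]; norm_num
      have k4 : 4 ≤ charDegree (χ : G → ℂ) := by omega
      have k5 : ((χ : G → ℂ) 1 * (χ : G → ℂ) u) =
          (((charDegree (χ : G → ℂ) : ℝ) * ((charDegree (χ : G → ℂ) : ℝ) - 4) : ℝ) : ℂ) := by
        rw [h6, ← hd]; push_cast; ring
      rw [k5, Complex.ofReal_re]
      have : (4 : ℝ) ≤ (charDegree (χ : G → ℂ) : ℝ) := by exact_mod_cast k4
      nlinarith
    · rw [h5]; simp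
  have h5 : ((χ₀ : G → ℂ) 1 * (χ₀ : G → ℂ) u).re = 1 := by
    show ((1 : ℂ) * 1).re = 1
    simp
  rw [h5] at h3
  simp only [Complex.zero_re] at h3
  linarith

theorem inner_zero {A B : G → ℂ} (hA : IsIrrCharacter G A) (hB : IsIrrCharacter G B)
    (h : A 1 ≠ B 1) : classInner A B = 0 := by
  apply hA.classInner_eq_zero hB
  rintro rfl
  exact h rfl

theorem inner_mul_comm (α β γ : G → ℂ) : classInner (α * β) γ = classInner (β * α) γ := by
  rw [mul_comm]

theorem Hyp.sq_u {u : G} (h : Hyp u) {V : G → ℂ} (hV : IsCharacter G V) (hV3 : V 1 = 3)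
    (hVu : V u = -1) : V (u * u) = 3 := by
  rw [sq_three h.perfect hV hV3 u, hV.inv, hVu]
  norm_num

/-- The structure of the tensor square for real characters of degree three. -/
structure Tri (u : G) (V W X Z : G → ℂ) : Prop where
  hV : IsIrrCharacter G V
  hW : IsIrrCharacter G W
  hX : IsIrrCharacter G X
  hZ : IsIrrCharacter G Z
  V1 : V 1 = 3
  W1 : W 1 = 5
  X1 : X 1 = 3
  Z1 : Z 1 = 4
  Vu : V u = -1
  Wu : W u = 1
  Xu : X u = -1
  Zu : Z u = 0
  VV : V * V = 1 + V + W
  VW : V * W = V + W + X + Z
  ne : X ≠ V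
  rV : ∀ g, conj (V g) = V g
  rW : ∀ g, conj (W g) = W g
  rX : ∀ g, conj (X g) = X g

theorem Hyp.real_struct {u : G} (h : Hyp u) {V : G → ℂ} (hV : IsIrrCharacter G V) (hV3 : V 1 = 3)
    (hVu : V u = -1) (rV : ∀ g, conj (V g) = V g) : ∃ W X Z : G → ℂ, Tri u V W X Z := by
  classical
  have hinv : ∀ g, V g⁻¹ = V g := fun g => by rw [hV.inv, rV]
  have hsq : ∀ g, V (g * g) = V g ^ 2 - 2 * V g := fun g => by
    rw [sq_three h.perfect hV.isCharacter hV3 g, hinv]
  have hVuu := h.sq_u hV.isCharacter hV3 hVu
  have i1 : classInner (V * V) 1 = 1 := by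
    rw [inner_mul_real rV, mul_one, hV.classInner_self]
  have i2 : classInner V 1 = 0 := inner_zero hV one_irr (by rw [hV3]; norm_num)
  have c1 : IsCharacter G (V * V - V) := by
    have := SymAltSq.isCharacter_symSq hV.isCharacter
    convert this using 1
    funext g
    rw [hsq, Pi.sub_apply, Pi.mul_apply]
    ring
  have c2 : IsCharacter G (V * V - V - 1) := by
    apply c1.sub_constituent one_irr
    rw [classInner_sub_left, i1, i2]
    norm_num
  set W : G → ℂ := V * V - V - 1 with hWdef
  have VV : V * V = 1 + V + W := by rw [hWdef]; ring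
  have Wval : ∀ g, W g = V g * V g - V g - 1 := fun g => rfl
  have W1 : W 1 = 5 := by rw [Wval, hV3]; norm_num
  have Wu : W u = 1 := by rw [Wval, hVu]; norm_num
  have Wuu : W (u * u) = 5 := by rw [Wval, hVuu]; norm_num
  have i3 : classInner W 1 = 0 := by
    rw [hWdef, classInner_sub_left, classInner_sub_left, i1, i2, one_irr.classInner_self]
    norm_num
  have hW : IsIrrCharacter G W := by
    apply h.single c2 i3 (by rw [Wuu, W1]) (n := 5) (by rw [W1]; norm_num) (by norm_num) (by norm_num)
    rw [W1, Wu]; norm_num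
  have rW : ∀ g, conj (W g) = W g := by
    intro g
    rw [Wval, map_sub, map_sub, map_mul, rV, map_one]
  have c3 : IsCharacter G (V * W - W) := by
    have := SymAltSq.isCharacter_altSq hW.isCharacter
    convert this using 1
    funext g
    rw [Wval (g * g), hsq, Pi.sub_apply, Pi.mul_apply, Wval]
    ring
  have i4 : classInner (V * W) 1 = 0 := by
    rw [inner_mul_real rW, mul_one]
    exact inner_zero hV hW (by rw [hV3, W1]; norm_num)
  have iWV : classInner W V = 0 := inner_zero hW hV (by rw [hV3, W1]; norm_num)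
  have i5 : classInner (V * W) V = 1 := by
    rw [mul_comm, inner_mul_real rV, VV, classInner_add_right, classInner_add_right, i3, iWV,
      hW.classInner_self]
    norm_num
  have c4 : IsCharacter G (V * W - W - V) := by
    apply c3.sub_constituent hV
    rw [classInner_sub_left, i5, iWV]
    norm_num
  have i6 : classInner (V * W - W - V) (fun _ => (1 : ℂ)) = 0 := by
    change classInner (V * W - W - V) 1 = 0
    rw [classInner_sub_left, classInner_sub_left, i4, i3, i2]
    norm_num
  obtain ⟨X, Z, hX, hZ, hXZ, X1, Xu, Z1, Zu⟩ := h.seven c4 i6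
    (by simp only [Pi.sub_apply, Pi.mul_apply, hVuu, Wuu, hV3, W1])
    (by simp only [Pi.sub_apply, Pi.mul_apply, hV3, W1]; norm_num)
    (by simp only [Pi.sub_apply, Pi.mul_apply, hV3, W1, hVu, Wu]; norm_num)
  have VW : V * W = V + W + X + Z := by
    have : V * W = (V * W - W - V) + V + W := by ring
    rw [this, hXZ]; ring
  have iZV : classInner Z V = 0 := inner_zero hZ hV (by rw [hV3, Z1]; norm_num)
  have hne : X ≠ V := by
    intro hXV
    rw [VW, hXV, classInner_add_left, classInner_add_left, classInner_add_left, hV.classInner_self,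
      iWV, iZV] at i5
    norm_num at i5
  have rX : ∀ g, conj (X g) = X g := by
    have hXc := hX.conj
    have k0 : (fun g => conj ((V * W) g)) = V * W := by
      funext g
      rw [Pi.mul_apply, map_mul, rV, rW]
    have k1 : classInner (V * W) (fun g => conj (X g)) = 1 := by
      rw [← k0, classInner_conj_conj, VW, classInner_add_right, classInner_add_right,
        classInner_add_right, hX.classInner_self, hX.classInner_eq_zero hV hne,
        inner_zero hX hW (by rw [X1, W1]; norm_num), inner_zero hX hZ (by rw [X1, Z1]; norm_num)]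
      norm_num
    have X1c : conj (X 1) = 3 := by
      rw [X1]; exact map_ofNat (starRingEnd ℂ) 3
    rw [VW, classInner_add_left, classInner_add_left, classInner_add_left,
      inner_zero hW hXc (by rw [X1c, W1]; norm_num), inner_zero hZ hXc (by rw [X1c, Z1]; norm_num)] at k1
    by_contra hcon
    have k2 : X ≠ (fun g => conj (X g)) := fun h => hcon (fun g => (congrFun h g).symm)
    have k3 : V ≠ (fun g => conj (X g)) := by
      intro h
      apply hne
      funext g
      have := congrFun h g
      rw [← rV g, this, Complex.conj_conj]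
    rw [hV.classInner_eq_zero hXc k3, hX.classInner_eq_zero hXc k2] at k1
    norm_num at k1
  exact ⟨W, X, Z, ⟨hV, hW, hX, hZ, hV3, W1, X1, Z1, hVu, Wu, Xu, Zu, VV, VW, hne, rV, rW, rX⟩⟩

theorem inner_norm_real {α β : G → ℂ} (hα : ∀ g, conj (α g) = α g) (hβ : ∀ g, conj (β g) = β g) :
    classInner (α * β) (α * β) = classInner (α * α) (β * β) := by
  rw [CharBasic.classInner_def, CharBasic.classInner_def]
  congr 1
  apply Finset.sum_congr rfl
  intro g _
  simp only [Pi.mul_apply, map_mul, hα, hβ]
  ring

theorem Tri.Vuu {u : G} (h : Hyp u) {V W X Z : G → ℂ} (T : Tri u V W X Z) : V (u * u) = 3 :=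
  h.sq_u T.hV.isCharacter T.V1 T.Vu

omit [Fintype G] in
theorem Tri.Wval {u : G} {V W X Z : G → ℂ} (T : Tri u V W X Z) (g : G) :
    W g = V g * V g - V g - 1 := by
  have h := congrFun T.VV g
  simp only [Pi.mul_apply, Pi.add_apply, Pi.one_apply] at h
  linear_combination -h

theorem Hyp.tri_norm {u : G} (_h : Hyp u) {V W X Z V' W' X' Z' : G → ℂ} (T : Tri u V W X Z)
    (T' : Tri u V' W' X' Z') (hne : V ≠ V') :
    classInner (V * V') (V * V') = 1 + classInner W W' := by
  rw [inner_norm_real T.rV T'.rV, T.VV, T'.VV]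
  simp only [classInner_add_left, classInner_add_right]
  rw [one_irr.classInner_self, inner_zero T.hV one_irr (by rw [T.V1]; norm_num),
    inner_zero T.hW one_irr (by rw [T.W1]; norm_num), inner_zero one_irr T'.hV (by rw [T'.V1]; norm_num),
    T.hV.classInner_eq_zero T'.hV hne, inner_zero T.hW T'.hV (by rw [T.W1, T'.V1]; norm_num),
    inner_zero one_irr T'.hW (by rw [T'.W1]; norm_num),
    inner_zero T.hV T'.hW (by rw [T.V1, T'.W1]; norm_num)]
  ring

theorem eq_of_inner_ne {A B : G → ℂ} (hA : IsIrrCharacter G A) (hB : IsIrrCharacter G B)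
    (h : classInner A B ≠ 0) : A = B := by
  by_contra hne
  exact h (hA.classInner_eq_zero hB hne)

/-- The final multiplication table. -/
structure Tri2 (u : G) (V W X Z : G → ℂ) : Prop where
  T : Tri u V W X Z
  XX : X * X = 1 + X + W
  VX : V * X = W + Z
  VZ : V * Z = X + W + Z
  XW : X * W = X + W + V + Z

theorem Hyp.tri_pair {u : G} (h : Hyp u) {V W X Z : G → ℂ} (T : Tri u V W X Z) : Tri2 u V W X Z := by
  classical
  obtain ⟨W', X', Z'', T'⟩ := h.real_struct T.hX T.X1 T.Xu T.rX
  have a1 : classInner (V * X) 1 = 0 := by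
    rw [inner_mul_real T.rX, mul_one]
    exact T.hV.classInner_eq_zero T.hX (fun h => T.ne h.symm)
  have iXV : classInner X V = 0 := T.hX.classInner_eq_zero T.hV T.ne
  have iXW : classInner X W = 0 := inner_zero T.hX T.hW (by rw [T.X1, T.W1]; norm_num)
  have iXZ : classInner X Z = 0 := inner_zero T.hX T.hZ (by rw [T.X1, T.Z1]; norm_num)
  have iVW : classInner V W = 0 := inner_zero T.hV T.hW (by rw [T.V1, T.W1]; norm_num)
  have iZW : classInner Z W = 0 := inner_zero T.hZ T.hW (by rw [T.Z1, T.W1]; norm_num)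
  have a2 : classInner (V * X) W = 1 := by
    rw [mul_comm, inner_mul_real T.rV, T.VW]
    simp only [classInner_add_right]
    rw [iXV, iXW, iXZ, T.hX.classInner_self]
    norm_num
  have cVX : IsCharacter G (V * X) := T.hV.isCharacter.mul T.hX.isCharacter
  have cZ' : IsCharacter G (V * X - W) := cVX.sub_constituent T.hW (by rw [a2]; norm_num)
  have iW1 : classInner W 1 = 0 := inner_zero T.hW one_irr (by rw [T.W1]; norm_num)
  have a3 : classInner (V * X - W) (fun _ => (1 : ℂ)) = 0 := by
    change classInner (V * X - W) 1 = 0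
    rw [classInner_sub_left, a1, iW1, sub_zero]
  have hZ' : IsIrrCharacter G (V * X - W) := by
    apply h.single cZ' a3 _ (n := 4) _ (by norm_num) (by norm_num)
    · simp only [Pi.sub_apply, Pi.mul_apply, T.V1, T.X1, T.W1, T.Vu, T.Xu, T.Wu]; norm_num
    · simp only [Pi.sub_apply, Pi.mul_apply, T.Vuu h, T'.Vuu h, T.Wval, T.V1, T.X1]
    · simp only [Pi.sub_apply, Pi.mul_apply, T.V1, T.X1, T.W1]; norm_num
  set Z' : G → ℂ := V * X - W with hZ'def
  have VX : V * X = W + Z' := by rw [hZ'def]; ring
  have Z'1 : Z' 1 = 4 := by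
    rw [hZ'def]; simp only [Pi.sub_apply, Pi.mul_apply, T.V1, T.X1, T.W1]; norm_num
  have iWZ' : classInner W Z' = 0 := inner_zero T.hW hZ' (by rw [T.W1, Z'1]; norm_num)
  have iZ'W : classInner Z' W = 0 := inner_zero hZ' T.hW (by rw [T.W1, Z'1]; norm_num)
  have a4 : classInner W W' = 1 := by
    have k1 := h.tri_norm T T' (fun h => T.ne h.symm)
    rw [VX] at k1
    simp only [classInner_add_left, classInner_add_right] at k1
    rw [T.hW.classInner_self, hZ'.classInner_self, iWZ', iZ'W] at k1
    linear_combination -k1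
  have hWW : W = W' := eq_of_inner_ne T.hW T'.hW (by rw [a4]; norm_num)
  subst hWW
  have iZ''W : classInner Z'' W = 0 := inner_zero T'.hZ T.hW (by rw [T'.Z1, T.W1]; norm_num)
  have a5 : classInner (X * W) V = 1 := by
    rw [mul_comm, inner_mul_real T.rX, mul_comm X V, VX]
    simp only [classInner_add_right]
    rw [T.hW.classInner_self, iWZ']
    norm_num
  have hX' : X' = V := by
    rw [T'.VW] at a5
    simp only [classInner_add_left] at a5
    rw [iXV, inner_zero T.hW T.hV (by rw [T.V1, T.W1]; norm_num),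
      inner_zero T'.hZ T.hV (by rw [T.V1, T'.Z1]; norm_num)] at a5
    apply eq_of_inner_ne T'.hX T.hV
    intro h0
    rw [h0] at a5
    norm_num at a5
  have XX : X * X = 1 + X + W := T'.VV
  have XW : X * W = X + W + V + Z'' := by rw [T'.VW, hX']
  have b1 : V * Z' = X + W + Z' + Z'' - Z := by
    have k : (V * V) * X = V * (V * X) := by ring
    rw [T.VV, VX] at k
    have k2 : (1 + V + W) * X = X + (W + Z') + (X + W + V + Z'') := by
      rw [← VX, ← XW]; ring
    have k3 : V * (W + Z') = (V + W + X + Z) + V * Z' := by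
      rw [← T.VW]; ring
    rw [k2, k3] at k
    linear_combination -k
  have b2 : X * Z' = V + W + Z' + Z - Z'' := by
    have k : (X * X) * V = X * (V * X) := by ring
    rw [XX, VX] at k
    have k2 : (1 + X + W) * V = V + (W + Z') + (V + W + X + Z) := by
      rw [← VX, ← T.VW]; ring
    have k3 : X * (W + Z') = (X + W + V + Z'') + X * Z' := by
      rw [← XW]; ring
    rw [k2, k3] at k
    linear_combination -k
  have hZZ' : Z' = Z := by
    have k1 : classInner (V * Z') W = 1 := by
      rw [b1]
      simp only [classInner_add_left, classInner_sub_left]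
      rw [iXW, T.hW.classInner_self, iZ'W, iZ''W, iZW]
      norm_num
    rw [mul_comm, inner_mul_real T.rV, T.VW] at k1
    simp only [classInner_add_right] at k1
    rw [inner_zero hZ' T.hV (by rw [Z'1, T.V1]; norm_num), iZ'W,
      inner_zero hZ' T.hX (by rw [Z'1, T.X1]; norm_num)] at k1
    apply eq_of_inner_ne hZ' T.hZ
    intro h0
    rw [h0] at k1
    norm_num at k1
  have hZZ'' : Z' = Z'' := by
    have k1 : classInner (X * Z') W = 1 := by
      rw [b2]
      simp only [classInner_add_left, classInner_sub_left]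
      rw [iVW, T.hW.classInner_self, iZ'W, iZ''W, iZW]
      norm_num
    rw [mul_comm, inner_mul_real T.rX, XW] at k1
    simp only [classInner_add_right] at k1
    rw [inner_zero hZ' T.hV (by rw [Z'1, T.V1]; norm_num), iZ'W,
      inner_zero hZ' T.hX (by rw [Z'1, T.X1]; norm_num)] at k1
    apply eq_of_inner_ne hZ' T'.hZ
    intro h0
    rw [h0] at k1
    norm_num at k1
  refine ⟨T, XX, by rw [VX, hZZ'], ?_, ?_⟩
  · rw [← hZZ', b1, ← hZZ'', ← hZZ']; ring
  · rw [XW, ← hZZ'', hZZ']

/-! ### Characters of degree three are real -/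

theorem Hyp.real_three {u : G} (h : Hyp u) {V : G → ℂ} (hV : IsIrrCharacter G V) (V1 : V 1 = 3)
    (Vu : V u = -1) : ∀ g, conj (V g) = V g := by
  classical
  by_contra hcon
  set Vb : G → ℂ := fun g => conj (V g) with hVbdef
  have hVb : IsIrrCharacter G Vb := hV.conj
  have hne : V ≠ Vb := fun h => hcon (fun g => (congrFun h g).symm)
  have hinv : ∀ g, V g⁻¹ = Vb g := fun g => hV.inv g
  have hbb : (fun g => conj (Vb g)) = V := by
    funext g; simp [hVbdef]
  have hsq : ∀ g, V (g * g) = V g ^ 2 - 2 * Vb g := fun g => by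
    rw [sq_three h.perfect hV.isCharacter V1 g, hinv]
  have Vuu := h.sq_u hV.isCharacter V1 Vu
  have Vb1 : Vb 1 = 3 := by
    rw [hVbdef]; simp only; rw [V1]; exact map_ofNat (starRingEnd ℂ) 3
  have Vbu : Vb u = -1 := by
    rw [hVbdef]; simp only; rw [Vu]; simp
  have Vbuu : Vb (u * u) = 3 := by
    rw [hVbdef]; simp only; rw [Vuu]; exact map_ofNat (starRingEnd ℂ) 3
  have iV1 : classInner V 1 = 0 := inner_zero hV one_irr (by rw [V1]; norm_num)
  have iVb1 : classInner Vb 1 = 0 := inner_zero hVb one_irr (by rw [Vb1]; norm_num)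
  have iVV1 : classInner (V * V) 1 = 0 := by
    rw [inner_mul, mul_one]; exact hV.classInner_eq_zero hVb hne
  -- the symmetric square
  have cS : IsCharacter G (V * V - Vb) := by
    have := SymAltSq.isCharacter_symSq hV.isCharacter
    convert this using 1
    funext g
    rw [hsq, Pi.sub_apply, Pi.mul_apply]
    ring
  have iS1 : classInner (V * V - Vb) (fun _ => (1 : ℂ)) = 0 := by
    change classInner (V * V - Vb) 1 = 0
    rw [classInner_sub_left, iVV1, iVb1, sub_zero]
  have hS : IsIrrCharacter G (V * V - Vb) := by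
    apply h.single cS iS1 _ (n := 6) _ (by norm_num) (by norm_num)
    · simp only [Pi.sub_apply, Pi.mul_apply, V1, Vb1, Vu, Vbu]; norm_num
    · simp only [Pi.sub_apply, Pi.mul_apply, Vuu, Vbuu, V1, Vb1]
    · simp only [Pi.sub_apply, Pi.mul_apply, V1, Vb1]; norm_num
  set S : G → ℂ := V * V - Vb with hSdef
  have VV : V * V = Vb + S := by rw [hSdef]; ring
  have S1 : S 1 = 6 := by
    rw [hSdef]; simp only [Pi.sub_apply, Pi.mul_apply, V1, Vb1]; norm_num
  have Su : S u = 2 := by
    rw [hSdef]; simp only [Pi.sub_apply, Pi.mul_apply, Vu, Vbu]; norm_num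
  have Suu : S (u * u) = 6 := by
    rw [hSdef]; simp only [Pi.sub_apply, Pi.mul_apply, Vuu, Vbuu]; norm_num
  -- the adjoint part
  have iR : classInner (V * Vb) 1 = 1 := inner_one_mul_conj hV
  have cVVb : IsCharacter G (V * Vb) := hV.isCharacter.mul hVb.isCharacter
  have cR : IsCharacter G (V * Vb - 1) := cVVb.sub_constituent one_irr (by rw [iR]; norm_num)
  have n1 : classInner (V * Vb) (V * Vb) = 2 := by
    have k : classInner (V * Vb) (V * Vb) = classInner (V * V) (V * V) := by
      rw [CharBasic.classInner_def, CharBasic.classInner_def]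
      congr 1
      apply Finset.sum_congr rfl
      intro g _
      simp only [Pi.mul_apply, map_mul, hVbdef, Complex.conj_conj]
      ring
    rw [k, VV]
    simp only [classInner_add_left, classInner_add_right]
    rw [hVb.classInner_self, hS.classInner_self, inner_zero hS hVb (by rw [S1, Vb1]; norm_num),
      inner_zero hVb hS (by rw [S1, Vb1]; norm_num)]
    norm_num
  have hR : IsIrrCharacter G (V * Vb - 1) := by
    apply cR.isIrr_of_norm_one
    have k2 : classInner 1 (V * Vb) = 1 := by
      rw [← conj_classInner, iR, map_one]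
    rw [classInner_sub_left, classInner_sub_right, classInner_sub_right, n1, iR, k2,
      one_irr.classInner_self]
    norm_num
  set R : G → ℂ := V * Vb - 1 with hRdef
  have VVb : V * Vb = 1 + R := by rw [hRdef]; ring
  have R1 : R 1 = 8 := by
    rw [hRdef]; simp only [Pi.sub_apply, Pi.mul_apply, V1, Vb1, Pi.one_apply]; norm_num
  have Ru : R u = 0 := by
    rw [hRdef]; simp only [Pi.sub_apply, Pi.mul_apply, Vu, Vbu, Pi.one_apply]; norm_num
  have Ruu : R (u * u) = 8 := by
    rw [hRdef]; simp only [Pi.sub_apply, Pi.mul_apply, Vuu, Vbuu, Pi.one_apply]; norm_num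
  -- `V S`
  have cVS : IsCharacter G (V * S) := hV.isCharacter.mul hS.isCharacter
  have iVS1 : classInner (V * S) 1 = 0 := by
    rw [mul_comm, inner_mul, mul_one]
    change classInner S Vb = 0
    exact inner_zero hS hVb (by rw [S1, Vb1]; norm_num)
  have iVSR : classInner (V * S) R ≠ 0 := by
    have k1 : classInner (V * S) (V * Vb) = classInner (V * S) R := by
      rw [VVb, classInner_add_right, iVS1, zero_add]
    have k2 : classInner (V * S) (V * Vb) = classInner S (V * V) + classInner (S * S) V := by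
      have k3 : classInner (V * S) (V * Vb) = classInner ((V * V) * S) V := by
        rw [CharBasic.classInner_def, CharBasic.classInner_def]
        congr 1
        apply Finset.sum_congr rfl
        intro g _
        simp only [Pi.mul_apply, map_mul, hVbdef, Complex.conj_conj]
        ring
      rw [k3, VV, add_mul, classInner_add_left, mul_comm Vb S, inner_mul S Vb V, hbb, VV]
    obtain ⟨m, hm⟩ := (hS.isCharacter.mul hS.isCharacter).classInner_nat hV.isCharacter
    rw [← k1, k2, hm, VV, classInner_add_right, hS.classInner_self,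
      inner_zero hS hVb (by rw [S1, Vb1]; norm_num), zero_add]
    intro h0
    have : (1 + m : ℕ) = 0 := by exact_mod_cast h0
    omega
  have iR1 : classInner R 1 = 0 := inner_zero hR one_irr (by rw [R1]; norm_num)
  have cT : IsCharacter G (V * S - R) := cVS.sub_constituent hR iVSR
  have iT1 : classInner (V * S - R) (fun _ => (1 : ℂ)) = 0 := by
    change classInner (V * S - R) 1 = 0
    rw [classInner_sub_left, iVS1, iR1, sub_zero]
  obtain ⟨X, Y, Z, hX, hY, hZ, hXYZ, X1, Y1, Z1, Zu⟩ := h.ten cT iT1
    (by simp only [Pi.sub_apply, Pi.mul_apply, Vuu, Suu, Ruu, V1, S1, R1])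
    (by simp only [Pi.sub_apply, Pi.mul_apply, V1, S1, R1]; norm_num)
    (by simp only [Pi.sub_apply, Pi.mul_apply, V1, S1, R1, Vu, Su, Ru]; norm_num)
  have VS : V * S = R + X + Y + Z := by
    have : V * S = (V * S - R) + R := by ring
    rw [this, hXYZ]; ring
  have Zuu : Z (u * u) = Z 1 := by
    apply eq_of_constituent cVS hZ
    · rw [VS]
      simp only [classInner_add_left]
      rw [inner_zero hR hZ (by rw [R1, Z1]; norm_num), inner_zero hX hZ (by rw [X1, Z1]; norm_num),
        inner_zero hY hZ (by rw [Y1, Z1]; norm_num), hZ.classInner_self]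
      norm_num
    · simp only [Pi.mul_apply, Vuu, Suu, V1, S1]
  -- `Z Vb`
  have cZV : IsCharacter G (Z * Vb) := hZ.isCharacter.mul hVb.isCharacter
  have iZVS : classInner (Z * Vb) S = 1 := by
    rw [inner_mul, hbb, VS]
    simp only [classInner_add_right]
    rw [inner_zero hZ hR (by rw [R1, Z1]; norm_num), inner_zero hZ hX (by rw [X1, Z1]; norm_num),
      inner_zero hZ hY (by rw [Y1, Z1]; norm_num), hZ.classInner_self]
    norm_num
  have iZV1 : classInner (Z * Vb) 1 = 0 := by
    rw [inner_mul, mul_one, hbb]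
    exact inner_zero hZ hV (by rw [Z1, V1]; norm_num)
  have cP : IsCharacter G (Z * Vb - S) := cZV.sub_constituent hS (by rw [iZVS]; norm_num)
  have iP1 : classInner (Z * Vb - S) (fun _ => (1 : ℂ)) = 0 := by
    change classInner (Z * Vb - S) 1 = 0
    rw [classInner_sub_left, iZV1, inner_zero hS one_irr (by rw [S1]; norm_num), sub_zero]
  obtain ⟨A, B, hA, hB, hAB, A1, B1⟩ := h.six cP iP1
    (by simp only [Pi.sub_apply, Pi.mul_apply, Vbuu, Suu, Zuu, Vb1, S1])
    (by simp only [Pi.sub_apply, Pi.mul_apply, Vb1, S1, Z1]; norm_num)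
    (by simp only [Pi.sub_apply, Pi.mul_apply, Vb1, S1, Z1, Vbu, Su, Zu]; norm_num)
  have ZVb : Z * Vb = S + A + B := by
    have : Z * Vb = (Z * Vb - S) + S := by ring
    rw [this, hAB]; ring
  have n2 : classInner (Z * Vb) (Z * Vb) = 3 + classInner A B + classInner B A := by
    rw [ZVb]
    simp only [classInner_add_left, classInner_add_right]
    rw [hS.classInner_self, hA.classInner_self, hB.classInner_self,
      inner_zero hS hA (by rw [S1, A1]; norm_num), inner_zero hS hB (by rw [S1, B1]; norm_num),
      inner_zero hA hS (by rw [S1, A1]; norm_num), inner_zero hB hS (by rw [S1, B1]; norm_num)]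
    ring
  set Zb : G → ℂ := fun g => conj (Z g) with hZbdef
  have hZb : IsIrrCharacter G Zb := hZ.conj
  have cZZ : IsCharacter G (Z * Zb) := hZ.isCharacter.mul hZb.isCharacter
  have iZZ1 : classInner (Z * Zb) 1 = 1 := inner_one_mul_conj hZ
  have n3 : classInner (Z * Vb) (Z * Vb) = 1 + classInner (Z * Zb) R := by
    have k : classInner (Z * Vb) (Z * Vb) = classInner (Z * Zb) (V * Vb) := by
      rw [CharBasic.classInner_def, CharBasic.classInner_def]
      congr 1
      apply Finset.sum_congr rfl
      intro g _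
      simp only [Pi.mul_apply, map_mul, hVbdef, hZbdef, Complex.conj_conj]
      ring
    rw [k, VVb, classInner_add_right, iZZ1]
  obtain ⟨m, hm⟩ := cZZ.classInner_nat hR.isCharacter
  obtain ⟨m', hm'⟩ := hA.isCharacter.classInner_nat hB.isCharacter
  obtain ⟨m'', hm''⟩ := hB.isCharacter.classInner_nat hA.isCharacter
  rw [n2, hm, hm', hm''] at n3
  have n4 : 3 + m' + m'' = 1 + m := by exact_mod_cast n3
  have n5 : 2 ≤ m := by omega
  have d1 : IsCharacter G (Z * Zb - R) := cZZ.sub_constituent hR (by
    rw [hm]; intro h0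
    have : m = 0 := by exact_mod_cast h0
    omega)
  have d2 : IsCharacter G (Z * Zb - R - R) := d1.sub_constituent hR (by
    rw [classInner_sub_left, hm, hR.classInner_self]
    intro h0
    have h1 : (m : ℂ) = 1 := by linear_combination h0
    have : m = 1 := by exact_mod_cast h1
    omega)
  have Zb1 : Zb 1 = 4 := by
    rw [hZbdef]; simp only; rw [Z1]; exact map_ofNat (starRingEnd ℂ) 4
  have d3 : (Z * Zb - R - R) 1 = 0 := by
    simp only [Pi.sub_apply, Pi.mul_apply, Z1, Zb1, R1]; norm_num
  have d4 := d2.eq_zero_of_one_eq_zero d3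
  have d5 : classInner (Z * Zb - R - R) 1 = 1 := by
    rw [classInner_sub_left, classInner_sub_left, iZZ1, iR1]; norm_num
  rw [d4, classInner_zero_left] at d5
  norm_num at d5

end Cfsg.Agent.Lib.ConstFour
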