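import Cfsg.Agent.Lib.ConstFour2

set_option autoImplicit false

/-!
# From characters to the group (helper79)
-/

namespace Cfsg.Agent.Lib.ConstFour

open Cfsg Cfsg.Agent.Lib.CharBasic Cfsg.Agent.Lib.FrobSchur Cfsg.Agent.Lib.DefectZero
open scoped ComplexConjugate

variable {G : Type*} [Group G] [Fintype G]

/-- The kernel of a character, as a normal subgroup. -/
theorem exists_kernel {V : G → ℂ} (hV : IsCharacter G V) :
    ∃ N : Subgroup G, N.Normal ∧ ∀ g, g ∈ N ↔ V g = V 1 := by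
  obtain ⟨n, ρ, rfl⟩ := hV
  refine ⟨MonoidHom.ker ρ, inferInstance, fun g => ?_⟩
  rw [MonoidHom.mem_ker, Representation.char_one]
  exact (CharValues.character_eq_finrank_iff ρ g).symm

omit [Fintype G] in
theorem Tri2.eq_on {u : G} {V W X Z : G → ℂ} (T : Tri2 u V W X Z) {g : G} (hg : V g = 3) :
    W g = 5 ∧ X g = 3 ∧ Z g = 4 := by
  have h1 := T.T.Wval g
  have h2 := congrFun T.T.VW g
  have h3 := congrFun T.VX g
  simp only [Pi.mul_apply, Pi.add_apply] at h2 h3
  rw [hg] at h1 h2 h3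
  have hW : W g = 5 := by rw [h1]; norm_num
  rw [hW] at h2 h3
  refine ⟨hW, ?_, ?_⟩
  · linear_combination (-1/4) * h2 + (1/4) * h3
  · linear_combination (-3/4) * h2 + (-1/4) * h3

omit [Fintype G] in
theorem Tri2.eq_off {u : G} {V W X Z : G → ℂ} (T : Tri2 u V W X Z) {g : G} (hg : V g ≠ 3) :
    1 + 3 * V g + 3 * X g + 4 * Z g + 5 * W g = 0 := by
  have h1 := congrFun T.T.VV g
  have h2 := congrFun T.T.VW g
  have h3 := congrFun T.VX g
  have h4 := congrFun T.VZ g
  simp only [Pi.mul_apply, Pi.add_apply, Pi.one_apply] at h1 h2 h3 h4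
  have h5 : (V g - 3) * (1 + 3 * V g + 3 * X g + 4 * Z g + 5 * W g) = 0 := by
    linear_combination 3 * h1 + 5 * h2 + 3 * h3 + 4 * h4
  rcases mul_eq_zero.mp h5 with h6 | h6
  · exact absurd (sub_eq_zero.mp h6) hg
  · exact h6

omit [Fintype G] in
theorem Tri2.val_neg {u : G} {V W X Z : G → ℂ} (T : Tri2 u V W X Z) {g : G} (hg : V g = -1) :
    W g = 1 ∧ X g = -1 ∧ Z g = 0 := by
  have h1 := T.T.Wval g
  have h3 := congrFun T.VX g
  have h4 := congrFun T.VZ g
  simp only [Pi.mul_apply, Pi.add_apply] at h3 h4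
  rw [hg] at h1 h3 h4
  have hW : W g = 1 := by rw [h1]; norm_num
  rw [hW] at h3 h4
  have hZ : Z g = 0 := by linear_combination h3 - h4
  refine ⟨hW, ?_, hZ⟩
  rw [hZ] at h3
  linear_combination -h3

theorem Tri2.card {u : G} {V W X Z : G → ℂ} (T : Tri2 u V W X Z) (N : Subgroup G)
    (hN : ∀ g, g ∈ N ↔ V g = V 1) : Nat.card G = 60 * Nat.card N := by
  classical
  have hT := T.T
  have h1 : classInner (1 + (3 : ℂ) • V + (3 : ℂ) • X + (4 : ℂ) • Z + (5 : ℂ) • W) 1 = 1 := by
    simp only [classInner_add_left, classInner_smul_left]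
    rw [one_irr.classInner_self, inner_zero hT.hV one_irr (by rw [hT.V1]; norm_num),
      inner_zero hT.hX one_irr (by rw [hT.X1]; norm_num),
      inner_zero hT.hZ one_irr (by rw [hT.Z1]; norm_num),
      inner_zero hT.hW one_irr (by rw [hT.W1]; norm_num)]
    norm_num
  rw [CharBasic.classInner_def] at h1
  have h2 : ∀ g : G, (1 + (3 : ℂ) • V + (3 : ℂ) • X + (4 : ℂ) • Z + (5 : ℂ) • W) g *
      conj ((1 : G → ℂ) g) = if g ∈ N then (60 : ℂ) else 0 := by
    intro g
    simp only [Pi.add_apply, Pi.one_apply, Pi.smul_apply, smul_eq_mul, map_one, mul_one]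
    split_ifs with h
    · have h3 : V g = 3 := by rw [(hN g).mp h, hT.V1]
      obtain ⟨k1, k2, k3⟩ := T.eq_on h3
      rw [h3, k1, k2, k3]; norm_num
    · apply T.eq_off
      intro h3
      exact h ((hN g).mpr (by rw [h3, hT.V1]))
  rw [Finset.sum_congr rfl (fun g _ => h2 g), ← Finset.sum_filter, Finset.sum_const] at h1
  have h3 : (Finset.univ.filter (fun g => g ∈ N)).card = Nat.card N := by
    rw [Nat.card_eq_fintype_card, Fintype.card_subtype]
  rw [h3, nsmul_eq_mul] at h1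
  have h4 : (Nat.card G : ℂ) ≠ 0 := by exact_mod_cast Nat.card_pos.ne'
  have h5 : (Nat.card G : ℂ) = ((60 * Nat.card N : ℕ) : ℂ) := by
    push_cast
    field_simp at h1
    linear_combination -h1
  exact_mod_cast h5

theorem Tri2.WW {u : G} {V W X Z : G → ℂ} (T : Tri2 u V W X Z) :
    W * W = 1 + V + (W + W) + X + (Z + Z) := by
  have h1 : W * W = V * (V * W) - V * W - W := by
    have : W = V * V - V - 1 := by rw [T.T.VV]; ring
    calc W * W = (V * V - V - 1) * W := by rw [← this]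
      _ = _ := by ring
  rw [h1]
  have h2 : V * (V * W) = V * V + V * W + V * X + V * Z := by
    calc V * (V * W) = V * (V + W + X + Z) := by rw [T.T.VW]
      _ = _ := by ring
  rw [h2, T.T.VV, T.VX, T.VZ]
  ring

/-- Uniqueness of the characters of degree three. -/
theorem Hyp.unique_three {u : G} (h : Hyp u) {V W X Z : G → ℂ} (T : Tri2 u V W X Z) {Y : G → ℂ}
    (hY : IsIrrCharacter G Y) (Y1 : Y 1 = 3) (Yu : Y u = -1) : Y = V ∨ Y = X := by
  classical
  obtain ⟨W', X', Z', T'⟩ := h.real_struct hY Y1 Yu (h.real_three hY Y1 Yu)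
  by_cases hYV : V = Y
  · exact Or.inl hYV.symm
  have hT := T.T
  have hWW : W = W' := by
    by_contra hne
    have k1 := h.tri_norm hT T' hYV
    rw [hT.hW.classInner_eq_zero T'.hW hne, add_zero] at k1
    have k2 := (hT.hV.isCharacter.mul hY.isCharacter).isIrr_of_norm_one k1
    have k3 : (V * Y) ≠ (fun _ => (1 : ℂ)) := by
      intro k
      have := congrFun k 1
      rw [Pi.mul_apply, hT.V1, Y1] at this
      norm_num at this
    rcases h ⟨V * Y, k2⟩ k3 with k4 | k4
    · have k5 : (V * Y) 1 - (V * Y) u = 4 := k4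
      rw [Pi.mul_apply, Pi.mul_apply, hT.V1, Y1, hT.Vu, Yu] at k5
      norm_num at k5
    · have k5 : (V * Y) u = 0 := k4
      rw [Pi.mul_apply, hT.Vu, Yu] at k5
      norm_num at k5
  subst hWW
  have k1 : classInner (W * W) Y = 1 := by
    rw [inner_mul_real hT.rW, mul_comm W Y, T'.VW]
    simp only [classInner_add_right]
    rw [inner_zero hT.hW hY (by rw [hT.W1, Y1]; norm_num), hT.hW.classInner_self,
      inner_zero hT.hW T'.hX (by rw [hT.W1, T'.X1]; norm_num),
      inner_zero hT.hW T'.hZ (by rw [hT.W1, T'.Z1]; norm_num)]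
    norm_num
  rw [T.WW] at k1
  simp only [classInner_add_left] at k1
  rw [inner_zero one_irr hY (by rw [Y1]; norm_num), hT.hV.classInner_eq_zero hY hYV,
    inner_zero hT.hW hY (by rw [hT.W1, Y1]; norm_num),
    inner_zero hT.hZ hY (by rw [hT.Z1, Y1]; norm_num)] at k1
  right
  symm
  apply eq_of_inner_ne hT.hX hY
  intro h0
  rw [h0] at k1
  norm_num at k1

/-- All other characters vanish at `u`. -/
theorem Hyp.vanish {u : G} (h : Hyp u) (hu : u ≠ 1) {V W X Z : G → ℂ} (T : Tri2 u V W X Z)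
    (χ : IrrCharacter G) (h0 : (χ : G → ℂ) ≠ 1) (hV : (χ : G → ℂ) ≠ V) (hX : (χ : G → ℂ) ≠ X)
    (hW : (χ : G → ℂ) ≠ W) : (χ : G → ℂ) u = 0 := by
  classical
  have hT := T.T
  -- nonnegativity
  have key : ∀ ψ : IrrCharacter G, (ψ : G → ℂ) ≠ 1 → (ψ : G → ℂ) ≠ V → (ψ : G → ℂ) ≠ X →
      0 ≤ ((ψ : G → ℂ) 1 * (ψ : G → ℂ) u).re ∧
      (((ψ : G → ℂ) 1 * (ψ : G → ℂ) u).re = 0 → (ψ : G → ℂ) u = 0) := by
    intro ψ h0 hV hX
    rcases h ψ h0 with h5 | h5
    · have hd := charDegree_eq ψ.2.isCharacter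
      have h6 : (ψ : G → ℂ) u = charDegree (ψ : G → ℂ) - 4 := by rw [hd]; linear_combination -h5
      have hpos := charDegree_pos ψ.2
      have k1 : charDegree (ψ : G → ℂ) ≠ 1 := by
        intro h3
        apply h.ne_one_of_ne h0
        rw [← hd, h3]; norm_num
      have k2 : charDegree (ψ : G → ℂ) ≠ 2 := by
        intro h3
        have h7 := h.deg_two (χ := ψ) (by rw [← hd, h3]; norm_num)
        rw [h6, h3] at h7
        norm_num at h7
      have k3 : charDegree (ψ : G → ℂ) ≠ 3 := by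
        intro h3
        rcases h.unique_three T ψ.2 (by rw [← hd, h3]; norm_num) (by rw [h6, h3]; norm_num) with k | k
        · exact hV k
        · exact hX k
      have k4 : 4 ≤ charDegree (ψ : G → ℂ) := by omega
      have k5 : ((ψ : G → ℂ) 1 * (ψ : G → ℂ) u) =
          (((charDegree (ψ : G → ℂ) : ℝ) * ((charDegree (ψ : G → ℂ) : ℝ) - 4) : ℝ) : ℂ) := by
        rw [h6, ← hd]; push_cast; ring
      rw [k5, Complex.ofReal_re]
      have k6 : (4 : ℝ) ≤ (charDegree (ψ : G → ℂ) : ℝ) := by exact_mod_cast k4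
      refine ⟨by nlinarith, fun k7 => ?_⟩
      have k8 : (charDegree (ψ : G → ℂ) : ℝ) = 4 := by
        rcases mul_eq_zero.mp k7 with k | k
        · rw [k] at k6; norm_num at k6
        · linarith
      have k9 : charDegree (ψ : G → ℂ) = 4 := by exact_mod_cast k8
      rw [h6, k9]; norm_num
    · rw [h5]; simp
  let χ₀ : IrrCharacter G := ⟨1, one_irr⟩
  let χV : IrrCharacter G := ⟨V, hT.hV⟩
  let χX : IrrCharacter G := ⟨X, hT.hX⟩
  let χW : IrrCharacter G := ⟨W, hT.hW⟩
  have n1 : χV ≠ χ₀ := fun h => by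
    have := congrFun (congrArg Subtype.val h) 1
    change V 1 = 1 at this
    rw [hT.V1] at this; norm_num at this
  have n2 : χX ≠ χ₀ := fun h => by
    have := congrFun (congrArg Subtype.val h) 1
    change X 1 = 1 at this
    rw [hT.X1] at this; norm_num at this
  have n3 : χW ≠ χ₀ := fun h => by
    have := congrFun (congrArg Subtype.val h) 1
    change W 1 = 1 at this
    rw [hT.W1] at this; norm_num at this
  have n4 : χX ≠ χV := fun h => hT.ne (congrArg Subtype.val h)
  have n5 : χW ≠ χV := fun h => by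
    have := congrFun (congrArg Subtype.val h) 1
    change W 1 = V 1 at this
    rw [hT.W1, hT.V1] at this; norm_num at this
  have n6 : χW ≠ χX := fun h => by
    have := congrFun (congrArg Subtype.val h) 1
    change W 1 = X 1 at this
    rw [hT.W1, hT.X1] at this; norm_num at this
  have h1 := sum_degree_mul u hu
  rw [← Finset.add_sum_erase _ _ (Finset.mem_univ χ₀),
    ← Finset.add_sum_erase _ _ (Finset.mem_erase.mpr ⟨n1, Finset.mem_univ χV⟩),
    ← Finset.add_sum_erase _ _ (Finset.mem_erase.mpr ⟨n4, Finset.mem_erase.mpr ⟨n2, Finset.mem_univ χX⟩⟩),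
    ← Finset.add_sum_erase _ _ (Finset.mem_erase.mpr ⟨n6, Finset.mem_erase.mpr ⟨n5,
      Finset.mem_erase.mpr ⟨n3, Finset.mem_univ χW⟩⟩⟩)] at h1
  set R := (((Finset.univ.erase χ₀).erase χV).erase χX).erase χW with hR
  have e0 : (χ₀ : G → ℂ) 1 * (χ₀ : G → ℂ) u = 1 := by show (1 : ℂ) * 1 = 1; norm_num
  have e1 : (χV : G → ℂ) 1 * (χV : G → ℂ) u = -3 := by
    show V 1 * V u = -3; rw [hT.V1, hT.Vu]; norm_num
  have e2 : (χX : G → ℂ) 1 * (χX : G → ℂ) u = -3 := by
    show X 1 * X u = -3; rw [hT.X1, hT.Xu]; norm_num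
  have e3 : (χW : G → ℂ) 1 * (χW : G → ℂ) u = 5 := by
    show W 1 * W u = 5; rw [hT.W1, hT.Wu]; norm_num
  rw [e0, e1, e2, e3] at h1
  have h2 : ∑ ψ ∈ R, ((ψ : G → ℂ) 1 * (ψ : G → ℂ) u).re = 0 := by
    rw [← Complex.re_sum]
    have : ∑ ψ ∈ R, (ψ : G → ℂ) 1 * (ψ : G → ℂ) u = 0 := by linear_combination h1
    rw [this]; simp
  have hmem : ∀ ψ ∈ R, (ψ : G → ℂ) ≠ 1 ∧ (ψ : G → ℂ) ≠ V ∧ (ψ : G → ℂ) ≠ X := by
    intro ψ hψ
    rw [hR] at hψ
    simp only [Finset.mem_erase, Finset.mem_univ, and_true] at hψ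
    exact ⟨fun k => hψ.2.2.2 (Subtype.ext k), fun k => hψ.2.2.1 (Subtype.ext k),
      fun k => hψ.2.1 (Subtype.ext k)⟩
  rw [Finset.sum_eq_zero_iff_of_nonneg
    (fun ψ hψ => (key ψ (hmem ψ hψ).1 (hmem ψ hψ).2.1 (hmem ψ hψ).2.2).1)] at h2
  have hχR : χ ∈ R := by
    rw [hR]
    simp only [Finset.mem_erase, Finset.mem_univ, and_true]
    exact ⟨fun k => hW (congrArg Subtype.val k), fun k => hX (congrArg Subtype.val k),
      fun k => hV (congrArg Subtype.val k), fun k => h0 (congrArg Subtype.val k)⟩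
  exact (key χ h0 hV hX).2 (h2 χ hχR)

/-- **The group theoretic information.** -/
theorem Hyp.group {u : G} (h : Hyp u) (hu : u ≠ 1) : ∃ N : Subgroup G, N.Normal ∧
    Nat.card G = 60 * Nat.card N ∧ u ∉ N ∧ u * u ∈ N ∧
    Nat.card (Subgroup.centralizer ({u} : Set G)) = 4 ∧
    (∀ x : G, x ∉ N → x * x ∈ N → IsConj x u) := by
  classical
  obtain ⟨V, hV, V1, Vu⟩ := h.exists_three hu
  obtain ⟨W, X, Z, T1⟩ := h.real_struct hV V1 Vu (h.real_three hV V1 Vu)
  have T := h.tri_pair T1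
  obtain ⟨N, hN, hmem⟩ := exists_kernel hV.isCharacter
  have hT := T.T
  have key : ∀ x : G, V x = -1 → ∑ χ : IrrCharacter G, (χ : G → ℂ) x * conj ((χ : G → ℂ) u) = 4 := by
    intro x hx
    obtain ⟨xW, xX, -⟩ := T.val_neg hx
    let χ₀ : IrrCharacter G := ⟨1, one_irr⟩
    let χV : IrrCharacter G := ⟨V, hT.hV⟩
    let χX : IrrCharacter G := ⟨X, hT.hX⟩
    let χW : IrrCharacter G := ⟨W, hT.hW⟩
    have n1 : χV ≠ χ₀ := fun h => by
      have := congrFun (congrArg Subtype.val h) 1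
      change V 1 = 1 at this
      rw [hT.V1] at this; norm_num at this
    have n2 : χX ≠ χ₀ := fun h => by
      have := congrFun (congrArg Subtype.val h) 1
      change X 1 = 1 at this
      rw [hT.X1] at this; norm_num at this
    have n3 : χW ≠ χ₀ := fun h => by
      have := congrFun (congrArg Subtype.val h) 1
      change W 1 = 1 at this
      rw [hT.W1] at this; norm_num at this
    have n4 : χX ≠ χV := fun h => hT.ne (congrArg Subtype.val h)
    have n5 : χW ≠ χV := fun h => by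
      have := congrFun (congrArg Subtype.val h) 1
      change W 1 = V 1 at this
      rw [hT.W1, hT.V1] at this; norm_num at this
    have n6 : χW ≠ χX := fun h => by
      have := congrFun (congrArg Subtype.val h) 1
      change W 1 = X 1 at this
      rw [hT.W1, hT.X1] at this; norm_num at this
    rw [← Finset.add_sum_erase _ _ (Finset.mem_univ χ₀),
      ← Finset.add_sum_erase _ _ (Finset.mem_erase.mpr ⟨n1, Finset.mem_univ χV⟩),
      ← Finset.add_sum_erase _ _ (Finset.mem_erase.mpr ⟨n4, Finset.mem_erase.mpr ⟨n2, Finset.mem_univ χX⟩⟩),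
      ← Finset.add_sum_erase _ _ (Finset.mem_erase.mpr ⟨n6, Finset.mem_erase.mpr ⟨n5,
        Finset.mem_erase.mpr ⟨n3, Finset.mem_univ χW⟩⟩⟩)]
    have e0 : (χ₀ : G → ℂ) x * conj ((χ₀ : G → ℂ) u) = 1 := by
      show (1 : ℂ) * conj 1 = 1; simp
    have e1 : (χV : G → ℂ) x * conj ((χV : G → ℂ) u) = 1 := by
      show V x * conj (V u) = 1; rw [hT.Vu, hx]; simp
    have e2 : (χX : G → ℂ) x * conj ((χX : G → ℂ) u) = 1 := by
      show X x * conj (X u) = 1; rw [hT.Xu, xX]; simp
    have e3 : (χW : G → ℂ) x * conj ((χW : G → ℂ) u) = 1 := by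
      show W x * conj (W u) = 1; rw [hT.Wu, xW]; simp
    rw [e0, e1, e2, e3, Finset.sum_eq_zero]
    · norm_num
    · intro ψ hψ
      simp only [Finset.mem_erase, Finset.mem_univ, and_true] at hψ
      rw [h.vanish hu T ψ (fun k => hψ.2.2.2 (Subtype.ext k)) (fun k => hψ.2.2.1 (Subtype.ext k))
        (fun k => hψ.2.1 (Subtype.ext k)) (fun k => hψ.1 (Subtype.ext k))]
      simp
  refine ⟨N, hN, T.card N hmem, ?_, ?_, ?_, ?_⟩
  · intro k
    rw [hmem, Vu, V1] at k
    norm_num at k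
  · rw [hmem, h.sq_u hV.isCharacter V1 Vu, V1]
  · have k1 := key u Vu
    rw [column_orthogonality, if_pos (IsConj.refl u)] at k1
    exact_mod_cast k1
  · intro x hx hxx
    rw [hmem, V1] at hx hxx
    have k1 := sq_three h.perfect hV.isCharacter V1 x
    rw [hV.inv, hT.rV, hxx] at k1
    have k2 : (V x - 3) * (V x + 1) = 0 := by linear_combination -k1
    have k3 : V x = -1 := by
      rcases mul_eq_zero.mp k2 with k | k
      · exact absurd (sub_eq_zero.mp k) hx
      · linear_combination k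
    have k4 := key x k3
    rw [column_orthogonality] at k4
    by_contra hcon
    rw [if_neg hcon] at k4
    norm_num at k4

end Cfsg.Agent.Lib.ConstFour
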