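import Mathlib
import Cfsg.Agent.Lib.ActSemi

/-!
# A coprime automorphism moves the centralizer of an involution (helper33)

`α` is an automorphism of prime order `p` of a finite group `G` with `p ∤ |G|`, `τ` is an involution with
`C_G(τ) ≤ C_G(α)`.  If the conjugates of `τ` generate `G` and `G` is simple then `τ` commutes with no
conjugate of itself, except `τ`.
-/

set_option autoImplicit false

namespace Cfsg.Agent.Lib.CopInvCent

open Subgroup
open scoped Pointwise

variable {G : Type*} [Group G]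

/-- The fixed points of an automorphism. -/
def fx (α : MulAut G) : Subgroup G where
  carrier := {g | α g = g}
  one_mem' := map_one α
  mul_mem' := by
    intro a b (ha : α a = a) (hb : α b = b)
    change α (a * b) = a * b
    rw [map_mul, ha, hb]
  inv_mem' := by
    intro a (ha : α a = a)
    change α a⁻¹ = a⁻¹
    rw [map_inv, ha]

theorem mem_fx {α : MulAut G} {g : G} : g ∈ fx α ↔ α g = g := Iff.rfl

theorem inv_iff [Finite G] {α : MulAut G} {H : Subgroup G} (hH : ∀ x ∈ H, α x ∈ H) (x : G) :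
    α x ∈ H ↔ x ∈ H := by
  refine ⟨fun h => ?_, hH x⟩
  have h1 : H.map (α : G ≃* G).toMonoidHom ≤ H := by
    rintro _ ⟨y, hy, rfl⟩; exact hH y hy
  have h2 : Nat.card (H.map (α : G ≃* G).toMonoidHom) = Nat.card H :=
    Subgroup.card_map_of_injective α.injective
  have h3 : H.map (α : G ≃* G).toMonoidHom = H := Subgroup.eq_of_le_of_card_ge h1 h2.ge
  rw [← h3] at h
  obtain ⟨y, hy, hyx⟩ := h
  rw [← α.injective hyx]; exact hy

theorem exists_fix_coset [Finite G] {α : MulAut G} {p : ℕ} [hp : Fact p.Prime] (hα : α ^ p = 1)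
    (hpG : ¬ p ∣ Nat.card G) {H : Subgroup G} (hH : ∀ x ∈ H, α x ∈ H) {g : G}
    (hg : α g * g⁻¹ ∈ H) : ∃ h ∈ H, h * g ∈ fx α := by
  classical
  have := Fintype.ofFinite G
  have hiff : ∀ x : G, α x * g⁻¹ ∈ H ↔ x * g⁻¹ ∈ H := by
    intro x
    have e : α x * g⁻¹ = α (x * g⁻¹) * (α g * g⁻¹) := by rw [map_mul, map_inv]; group
    rw [e, H.mul_mem_cancel_right hg, inv_iff hH]
  let σ : Equiv.Perm {x : G // x * g⁻¹ ∈ H} := Equiv.Perm.subtypePerm (p := fun x => x * g⁻¹ ∈ H) (MulAut.toPerm G α) hiff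
  have hσ1 : ∀ (n : ℕ) (x : {x : G // x * g⁻¹ ∈ H}), (((σ ^ n) x : {x : G // x * g⁻¹ ∈ H}) : G) = (α ^ n) x.1 := by
    intro n
    induction n with
    | zero => intro x; simp
    | succ n ih =>
      intro x
      rw [pow_succ', pow_succ', Equiv.Perm.mul_apply, MulAut.mul_apply, ← ih]
      rfl
  have hσ : σ ^ p ^ 1 = 1 := by
    rw [pow_one]
    ext x
    rw [hσ1, hα]; rfl
  have hcard : ¬ p ∣ Fintype.card {x : G // x * g⁻¹ ∈ H} := by
    have e1 : {x : G // x * g⁻¹ ∈ H} ≃ H :=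
      (Equiv.mulRight g⁻¹).subtypeEquiv (fun x => Iff.rfl)
    rw [← Nat.card_eq_fintype_card, Nat.card_congr e1]
    intro h
    exact hpG (h.trans (Subgroup.card_subgroup_dvd_card H))
  obtain ⟨a, ha⟩ := Equiv.Perm.exists_fixed_point_of_prime hcard hσ
  refine ⟨a.1 * g⁻¹, a.2, ?_⟩
  rw [inv_mul_cancel_right, mem_fx]
  exact congrArg Subtype.val ha

/-- Fact A: an element conjugating a subgroup `E` of `C = C_G(α)` into `C` lies in `C_G(E) C`. -/
theorem factA [Finite G] {α : MulAut G} {p : ℕ} [hp : Fact p.Prime] (hα : α ^ p = 1)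
    (hpG : ¬ p ∣ Nat.card G) {E : Set G} (hE : ∀ e ∈ E, e ∈ fx α) {x : G}
    (hx : ∀ e ∈ E, x⁻¹ * e * x ∈ fx α) : ∃ y ∈ centralizer E, y * x ∈ fx α := by
  apply exists_fix_coset hα hpG (H := centralizer E)
  · intro y hy
    rw [mem_centralizer_iff] at hy ⊢
    intro e he
    have h1 := hy e he
    have h2 := congrArg α h1
    rw [map_mul, map_mul, mem_fx.1 (hE e he)] at h2
    exact h2
  · rw [mem_centralizer_iff]
    intro e he
    have h1 := mem_fx.1 (hx e he)
    rw [map_mul, map_mul, map_inv, mem_fx.1 (hE e he)] at h1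
    -- (α x)⁻¹ * e * α x = x⁻¹ * e * x
    have h2 : α x * ((α x)⁻¹ * e * α x) * x⁻¹ = α x * (x⁻¹ * e * x) * x⁻¹ := by rw [h1]
    have e1 : α x * ((α x)⁻¹ * e * α x) * x⁻¹ = e * (α x * x⁻¹) := by group
    have e2 : α x * (x⁻¹ * e * x) * x⁻¹ = α x * x⁻¹ * e := by group
    rw [e1, e2] at h2
    exact h2

/-- An invariant `q`-subgroup of an invariant subgroup `N` lies in an invariant Sylow `q`-subgroup. -/
theorem exists_inv_sylow_ge [Finite G] {α : MulAut G} {p : ℕ} [hp : Fact p.Prime] (hα : α ^ p = 1)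
    (hpG : ¬ p ∣ Nat.card G) {q : ℕ} [hq : Fact q.Prime] {U N : Subgroup G} (hU : ∀ x ∈ U, α x ∈ U)
    (hN : ∀ x ∈ N, α x ∈ N) (hUN : U ≤ N) (hUq : IsPGroup q U) :
    ∃ P : Subgroup G, U ≤ P ∧ P ≤ N ∧ IsPGroup q P ∧ ¬ q ∣ P.relIndex N ∧ ∀ x ∈ P, α x ∈ P := by
  let φ : Subgroup.zpowers α →* MulAut G := (Subgroup.zpowers α).subtype
  have hfin : Finite (Subgroup.zpowers α) := by
    have : Finite (MulAut G) := inferInstance
    infer_instance
  have hpow : ∀ {H : Subgroup G}, (∀ x ∈ H, α x ∈ H) → ∀ a : Subgroup.zpowers α, ∀ x ∈ H, φ a x ∈ H := by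
    intro H hH a x hx
    obtain ⟨a, n, rfl⟩ := a
    change (α ^ n) x ∈ H
    have h1 : ∀ n : ℕ, ∀ x ∈ H, (α ^ n) x ∈ H := by
      intro n
      induction n with
      | zero => intro x hx; simpa using hx
      | succ n ih => intro x hx; rw [pow_succ, MulAut.mul_apply]; exact ih _ (hH x hx)
    have h2 : ∃ k : ℕ, α ^ n = α ^ k := by
      have : IsOfFinOrder α := isOfFinOrder_of_finite α
      obtain ⟨k, hk⟩ := this.mem_powers_iff_mem_zpowers.2 ⟨n, rfl⟩
      exact ⟨k, hk.symm⟩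
    obtain ⟨k, hk⟩ := h2
    rw [hk]; exact h1 k x hx
  have hcardA : Nat.card (Subgroup.zpowers α) ∣ p := by
    rw [Nat.card_zpowers]; exact orderOf_dvd_of_pow_eq_one hα
  have hcop : (Nat.card (Subgroup.zpowers α)).Coprime (Nat.card G) :=
    Nat.Coprime.coprime_dvd_left hcardA ((Nat.Prime.coprime_iff_not_dvd hp.out).2 hpG)
  have hsolv : Group.IsSolvable (Subgroup.zpowers α) := inferInstance
  open ActSemi in
  have hcop' : (Nat.card (KA φ)).Coprime (Nat.card (up φ N)) := by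
    rw [card_KA, card_up]
    exact hcop.coprime_dvd_right (Subgroup.card_subgroup_dvd_card N)
  have hs : Group.IsSolvable (ActSemi.KA φ) :=
    Group.isSolvable_of_surjective (f := (SemidirectProduct.inr : Subgroup.zpowers α →* G ⋊[φ] Subgroup.zpowers α).rangeRestrict)
          (MonoidHom.rangeRestrict_surjective _)
  obtain ⟨P, h1, h2, h3, h4, h5⟩ := CoprimeAction.exists_invariant_sylow_ge (A := ActSemi.KA φ) (K := ActSemi.up φ N)
    (ActSemi.KA_le_normalizer_up φ (hpow hN)) hcop' (Or.inl hs) (p := q) (U := ActSemi.up φ U)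
    (Subgroup.map_mono hUN) (hUq.map _) (ActSemi.KA_le_normalizer_up φ (hpow hU))
  have hPK : P ≤ ActSemi.KG φ := h2.trans (ActSemi.up_le φ N)
  have hup := ActSemi.up_down φ hPK
  refine ⟨ActSemi.down φ P, ?_, ?_, ?_, ?_, ?_⟩
  · intro x hx
    exact (ActSemi.mem_down φ).2 (h1 ((ActSemi.inl_mem_up φ).2 hx))
  · intro x hx
    exact (ActSemi.inl_mem_up φ).1 (h2 ((ActSemi.mem_down φ).1 hx))
  · rw [← hup] at h3
    intro x
    obtain ⟨k, hk⟩ := h3 ⟨SemidirectProduct.inl (x : G), (ActSemi.inl_mem_up φ).2 x.2⟩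
    refine ⟨k, Subtype.ext ?_⟩
    have h2 := congrArg Subtype.val hk
    apply SemidirectProduct.inl_injective (φ := φ)
    simpa using h2
  · have h6 : (ActSemi.up φ (ActSemi.down φ P)).relIndex (ActSemi.up φ N) = (ActSemi.down φ P).relIndex N :=
      Subgroup.relIndex_map_map_of_injective _ _ SemidirectProduct.inl_injective
    rw [hup] at h6
    rw [← h6]; exact h4
  · intro x hx
    exact ActSemi.invariant_down φ h5 ⟨α, Subgroup.mem_zpowers α⟩ x hx

/-- Fact F1: an element fusing `τ` into `C` lies in `C`. -/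
theorem mem_of_conj_mem [Finite G] {α : MulAut G} {p : ℕ} [hp : Fact p.Prime] (hα : α ^ p = 1)
    (hpG : ¬ p ∣ Nat.card G) {τ : G} (hC : centralizer {τ} ≤ fx α) {x : G} (hx : x⁻¹ * τ * x ∈ fx α) :
    x ∈ fx α := by
  have hτC : τ ∈ fx α := hC (mem_centralizer_singleton_iff.2 rfl)
  obtain ⟨y, hy, hyx⟩ := factA hα hpG (E := {τ}) (x := x)
    (by rintro e (rfl : e = τ); exact hτC) (by rintro e (rfl : e = τ); exact hx)
  have h1 := (fx α).mul_mem ((fx α).inv_mem (hC hy)) hyx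
  rwa [inv_mul_cancel_left] at h1

/-- `|G : C|` is odd. -/
theorem odd_index [Finite G] {α : MulAut G} {p : ℕ} [hp : Fact p.Prime] (hα : α ^ p = 1)
    (hpG : ¬ p ∣ Nat.card G) {τ : G} (hτ : orderOf τ = 2) (hC : centralizer {τ} ≤ fx α) :
    ¬ 2 ∣ (fx α).index := by
  have hτC : τ ∈ fx α := hC (mem_centralizer_singleton_iff.2 rfl)
  have h1 : IsPGroup 2 (Subgroup.zpowers τ) := IsPGroup.of_card (n := 1) (by rw [Nat.card_zpowers, hτ, pow_one])
  have h2 := h1.card_modEq_card_fixedPoints (G ⧸ fx α)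
  have h3 : Nat.card (MulAction.fixedPoints (Subgroup.zpowers τ) (G ⧸ fx α)) = 1 := by
    rw [Nat.card_eq_one_iff_unique]
    constructor
    · constructor
      have key : ∀ a : MulAction.fixedPoints (Subgroup.zpowers τ) (G ⧸ fx α), (a : G ⧸ fx α) = ((1 : G) : G ⧸ fx α) := by
        rintro ⟨a, ha⟩
        induction a using QuotientGroup.induction_on with
        | H z =>
          have h4 := ha ⟨τ, Subgroup.mem_zpowers τ⟩
          have h5 : ((τ * z : G) : G ⧸ fx α) = (z : G ⧸ fx α) := h4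
          rw [eq_comm, QuotientGroup.eq] at h5
          change (z : G ⧸ fx α) = ((1 : G) : G ⧸ fx α)
          rw [eq_comm, QuotientGroup.eq, inv_one, one_mul]
          apply mem_of_conj_mem hα hpG hC (x := z)
          rwa [mul_assoc]
      intro a b
      exact Subtype.ext ((key a).trans (key b).symm)
    · refine ⟨⟨((1 : G) : G ⧸ fx α), ?_⟩⟩
      rintro ⟨z, hz⟩
      have hz' : z ∈ fx α := by
        have : Subgroup.zpowers τ ≤ fx α := by rw [Subgroup.zpowers_le]; exact hτC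
        exact this hz
      change ((z * 1 : G) : G ⧸ fx α) = ((1 : G) : G ⧸ fx α)
      rw [eq_comm, QuotientGroup.eq, inv_one, one_mul, mul_one]
      exact hz'
  rw [h3] at h2
  intro h
  have h4 : Nat.card (G ⧸ fx α) % 2 = 1 % 2 := h2
  rw [Subgroup.index] at h
  omega

/-- Every invariant `2`-subgroup lies in `C`. -/
theorem inv_two_le [Finite G] {α : MulAut G} {p : ℕ} [hp : Fact p.Prime] (hα : α ^ p = 1)
    (hpG : ¬ p ∣ Nat.card G) (hodd : ¬ 2 ∣ (fx α).index) {P : Subgroup G} (hP : ∀ x ∈ P, α x ∈ P)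
    (hP2 : IsPGroup 2 P) : P ≤ fx α := by
  have h2 : Fact (Nat.Prime 2) := ⟨Nat.prime_two⟩
  obtain ⟨Q, hPQ, -, hQ2, hQi, hQ⟩ := exists_inv_sylow_ge hα hpG (N := ⊤) hP (fun x _ => trivial) le_top hP2
  rw [Subgroup.relIndex_top_right] at hQi
  refine hPQ.trans ?_
  obtain ⟨S⟩ : Nonempty (Sylow 2 (fx α)) := inferInstance
  obtain ⟨hS1, hS2, hS3⟩ := CoprimeAction.sylow_map_subtype_props S
  set T : Subgroup G := (S : Subgroup (fx α)).map (fx α).subtype with hT
  have hTi : ¬ 2 ∣ T.index := by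
    rw [← Subgroup.relIndex_mul_index hS1]
    intro h
    rcases (Nat.Prime.dvd_mul Nat.prime_two).1 h with h | h
    · exact hS3 h
    · exact hodd h
  -- conjugacy
  let Qs : Sylow 2 G := hQ2.toSylow hQi
  let Ts : Sylow 2 G := hS2.toSylow hTi
  obtain ⟨g, hg⟩ := MulAction.exists_smul_eq G Ts Qs
  have hg' : MulAut.conj g • T = Q := congrArg (fun X : Sylow 2 G => (X : Subgroup G)) hg
  have hmem : ∀ x : G, x ∈ T ↔ g * x * g⁻¹ ∈ Q := by
    intro x
    rw [← hg', Subgroup.mem_smul_pointwise_iff_exists]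
    constructor
    · intro h; exact ⟨x, h, by simp [MulAut.smul_def, MulAut.conj_apply]⟩
    · rintro ⟨s, hs, hs2⟩
      have : s = x := by
        rw [MulAut.smul_def, MulAut.conj_apply] at hs2
        exact mul_left_cancel (mul_right_cancel hs2)
      rwa [← this]
  have hcoset : α g * g⁻¹ ∈ normalizer (Q : Set G) := by
    rw [mem_normalizer_iff]
    intro z
    -- z ∈ Q ↔ g⁻¹ z g ∈ T, and α (g t g⁻¹) = α g t (α g)⁻¹
    have h3 : ∀ t ∈ T, α g * t * (α g)⁻¹ ∈ Q := by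
      intro t ht
      have h4 := hQ _ ((hmem t).1 ht)
      rw [map_mul, map_mul, map_inv, mem_fx.1 (hS1 ht)] at h4
      exact h4
    have h4 : ∀ z ∈ Q, α g * g⁻¹ * z * (α g * g⁻¹)⁻¹ ∈ Q := by
      intro z hz
      have h5 : g⁻¹ * z * g ∈ T := by rw [hmem]; simpa [mul_assoc] using hz
      have h6 := h3 _ h5
      have e : α g * (g⁻¹ * z * g) * (α g)⁻¹ = α g * g⁻¹ * z * (α g * g⁻¹)⁻¹ := by group
      rwa [e] at h6
    have h5 : α g * g⁻¹ ∈ normalizer (Q : Set G) := by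
      have h7 : MulAut.conj (α g * g⁻¹) • Q ≤ Q := by
        rintro _ ⟨z, hz, rfl⟩
        exact h4 z hz
      have h8 : Nat.card (MulAut.conj (α g * g⁻¹) • Q : Subgroup G) = Nat.card Q :=
        SubgroupTools.card_conj_smul _ _
      have h9 : MulAut.conj (α g * g⁻¹) • Q = Q := Subgroup.eq_of_le_of_card_ge h7 h8.ge
      rw [mem_normalizer_iff]
      intro z
      constructor
      · exact h4 z
      · intro hz
        rw [← h9, Subgroup.mem_smul_pointwise_iff_exists] at hz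
        obtain ⟨s, hs, hs2⟩ := hz
        rw [MulAut.smul_def, MulAut.conj_apply] at hs2
        have : s = z := mul_left_cancel (mul_right_cancel hs2)
        rwa [← this]
    exact mem_normalizer_iff.1 h5 z
  have hNinv : ∀ x ∈ normalizer (Q : Set G), α x ∈ normalizer (Q : Set G) := by
    intro x hx
    rw [mem_normalizer_iff] at hx ⊢
    intro z
    obtain ⟨w, rfl⟩ := α.surjective z
    have e : α x * α w * (α x)⁻¹ = α (x * w * x⁻¹) := by rw [map_mul, map_mul, map_inv]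
    rw [e]
    change α w ∈ Q ↔ α (x * w * x⁻¹) ∈ Q
    rw [inv_iff hQ, inv_iff hQ]
    exact hx w
  obtain ⟨h, hh, hhg⟩ := exists_fix_coset hα hpG hNinv hcoset
  intro z hz
  -- z = (h g) t (h g)⁻¹ with t ∈ T
  have h3 : h⁻¹ * z * h ∈ Q := by
    have := (mem_normalizer_iff.1 ((normalizer (Q : Set G)).inv_mem hh) z).1 hz
    simpa using this
  have h4 : g⁻¹ * (h⁻¹ * z * h) * g ∈ T := by rw [hmem]; simpa [mul_assoc] using h3
  have h5 := (fx α).mul_mem ((fx α).mul_mem hhg (hS1 h4)) ((fx α).inv_mem hhg)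
  have e : h * g * (g⁻¹ * (h⁻¹ * z * h) * g) * (h * g)⁻¹ = z := by group
  rwa [e] at h5

/-- Fact F4. -/
theorem factB [Finite G] {α : MulAut G} {p : ℕ} [hp : Fact p.Prime] (hα : α ^ p = 1)
    (hpG : ¬ p ∣ Nat.card G) (hodd : ¬ 2 ∣ (fx α).index) {E : Subgroup G} (hE : E ≤ fx α) {t : G}
    (ht : t * t = 1) (htE : t ∈ normalizer (E : Set G)) :
    ∃ y ∈ centralizer (E : Set G), y * t * y⁻¹ ∈ fx α := by
  have h2 : Fact (Nat.Prime 2) := ⟨Nat.prime_two⟩
  have hN : ∀ x ∈ normalizer (E : Set G), α x ∈ normalizer (E : Set G) := by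
    intro x hx
    rw [mem_normalizer_iff] at hx ⊢
    intro z
    obtain ⟨w, rfl⟩ := α.surjective z
    have e : α x * α w * (α x)⁻¹ = α (x * w * x⁻¹) := by rw [map_mul, map_mul, map_inv]
    have hEi : ∀ x ∈ E, α x ∈ E := fun x hx => by rw [mem_fx.1 (hE hx)]; exact hx
    rw [e]
    change α w ∈ E ↔ α (x * w * x⁻¹) ∈ E
    rw [inv_iff hEi, inv_iff hEi]
    exact hx w
  obtain ⟨P, -, hPN, hP2, hPi, hP⟩ := exists_inv_sylow_ge hα hpG (N := normalizer (E : Set G)) (U := ⊥)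
    (by rintro x hx; rw [mem_bot.1 hx, map_one]; exact one_mem _) hN bot_le IsPGroup.of_bot (q := 2)
  have hPC := inv_two_le hα hpG hodd hP hP2
  -- conjugate `t` into `P`
  obtain ⟨S, hS⟩ := CoprimeAction.exists_sylow_map_subtype_eq hPN hP2 hPi
  have h4 : (⟨t, htE⟩ : normalizer (E : Set G)) ^ (2 ^ 1) = 1 := Subtype.ext (by
      change t ^ (2 ^ 1) = 1; rw [pow_one, pow_two, ht])
  have h3 : IsPGroup 2 (Subgroup.zpowers (⟨t, htE⟩ : normalizer (E : Set G))) := by
    obtain ⟨k, -, hk⟩ := (Nat.dvd_prime_pow Nat.prime_two).1 (orderOf_dvd_of_pow_eq_one h4)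
    exact IsPGroup.of_card (n := k) (by rw [Nat.card_zpowers, hk])
  obtain ⟨S', hS'⟩ := h3.exists_le_sylow
  obtain ⟨g, hg⟩ := MulAction.exists_smul_eq (normalizer (E : Set G)) S' S
  have h4' : g * (⟨t, htE⟩ : normalizer (E : Set G)) * g⁻¹ ∈ (S : Subgroup (normalizer (E : Set G))) := by
    rw [← hg]
    exact ⟨_, hS' (Subgroup.mem_zpowers _), rfl⟩
  have h5 : (g : G) * t * (g : G)⁻¹ ∈ fx α := by
    apply hPC
    rw [← hS]
    exact ⟨_, h4', rfl⟩
  -- factA with x = g⁻¹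
  obtain ⟨y, hy, hyx⟩ := factA hα hpG (E := (E : Set G)) (x := (g : G)⁻¹) (fun e he => hE he) (by
    intro e he
    apply hE
    rw [inv_inv]
    exact (mem_normalizer_iff.1 g.2 e).1 he)
  refine ⟨y, hy, ?_⟩
  have h6 := (fx α).mul_mem ((fx α).mul_mem hyx h5) ((fx α).inv_mem hyx)
  have e : y * (g : G)⁻¹ * ((g : G) * t * (g : G)⁻¹) * (y * (g : G)⁻¹)⁻¹ = y * t * y⁻¹ := by group
  rwa [e] at h6

end Cfsg.Agent.Lib.CopInvCent
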