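import Mathlib
import Cfsg.Agent.Lib.CopInvCent

/-!
# A coprime automorphism moves the centralizer of an involution, II (helper33)
-/

set_option autoImplicit false

namespace Cfsg.Agent.Lib.CopInvCent

open Subgroup
open scoped Pointwise

variable {G : Type*} [Group G]

theorem mem_of_conj_mem' [Finite G] {α : MulAut G} {p : ℕ} [hp : Fact p.Prime] (hα : α ^ p = 1)
    (hpG : ¬ p ∣ Nat.card G) {τ : G} (hC : centralizer {τ} ≤ fx α) {t : G} (ht : IsConj τ t) (htC : t ∈ fx α)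
    {x : G} (hx : x⁻¹ * t * x ∈ fx α) : x ∈ fx α := by
  obtain ⟨g, hg⟩ := isConj_iff.1 ht
  have h1 : g⁻¹ ∈ fx α := mem_of_conj_mem hα hpG hC (x := g⁻¹) (by rw [inv_inv, hg]; exact htC)
  have h2 : g⁻¹ * x ∈ fx α := mem_of_conj_mem hα hpG hC (x := g⁻¹ * x) (by
    have e : (g⁻¹ * x)⁻¹ * τ * (g⁻¹ * x) = x⁻¹ * (g * τ * g⁻¹) * x := by group
    rw [e, hg]; exact hx)
  exact ((fx α).mul_mem_cancel_left h1).1 h2

open Classical in
/-- the count `|I| = |G : C| |I ∩ C|` -/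
theorem card_conj_eq [Fintype G] {α : MulAut G} {p : ℕ} [hp : Fact p.Prime] (hα : α ^ p = 1)
    (hpG : ¬ p ∣ Nat.card G) {τ : G} (hC : centralizer {τ} ≤ fx α) :
    (Finset.univ.filter (fun x : G => IsConj τ x)).card =
      Fintype.card (G ⧸ fx α) * (Finset.univ.filter (fun x : G => x ∈ fx α ∧ IsConj τ x)).card := by
  have hfin : Finite G := inferInstance
  rw [← Finset.card_univ, ← Finset.card_product]
  symm
  apply Finset.card_bij (fun (a : (G ⧸ fx α) × G) _ => a.1.out * a.2 * a.1.out⁻¹)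
  · rintro ⟨q, t⟩ h
    rw [Finset.mem_product, Finset.mem_filter] at h
    rw [Finset.mem_filter]
    exact ⟨Finset.mem_univ _, h.2.2.2.trans (isConj_iff.2 ⟨q.out, rfl⟩)⟩
  · rintro ⟨q, t⟩ h ⟨q', t'⟩ h' (he : q.out * t * q.out⁻¹ = q'.out * t' * q'.out⁻¹)
    rw [Finset.mem_product, Finset.mem_filter] at h h'
    have h1 : q.out⁻¹ * q'.out ∈ fx α := by
      apply mem_of_conj_mem' hα hpG hC h.2.2.2 h.2.2.1
      have e : (q.out⁻¹ * q'.out)⁻¹ * t * (q.out⁻¹ * q'.out) = q'.out⁻¹ * (q.out * t * q.out⁻¹) * q'.out := by group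
      rw [e, he]
      have e2 : q'.out⁻¹ * (q'.out * t' * q'.out⁻¹) * q'.out = t' := by group
      rw [e2]; exact h'.2.2.1
    have h2 : q = q' := by
      rw [← QuotientGroup.eq] at h1
      rwa [QuotientGroup.out_eq', QuotientGroup.out_eq'] at h1
    subst h2
    have h3 : t = t' := mul_left_cancel (mul_right_cancel he)
    rw [h3]
  · intro b hb
    rw [Finset.mem_filter] at hb
    obtain ⟨g, hg⟩ := isConj_iff.1 hb.2
    have h1 : (g : G ⧸ fx α).out⁻¹ * g ∈ fx α := by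
      rw [← QuotientGroup.eq, QuotientGroup.out_eq']
    have hτC : τ ∈ fx α := hC (mem_centralizer_singleton_iff.2 rfl)
    refine ⟨((g : G ⧸ fx α), ((g : G ⧸ fx α).out⁻¹ * g) * τ * ((g : G ⧸ fx α).out⁻¹ * g)⁻¹), ?_, ?_⟩
    · rw [Finset.mem_product, Finset.mem_filter]
      exact ⟨Finset.mem_univ _, Finset.mem_univ _, (fx α).mul_mem ((fx α).mul_mem h1 hτC) ((fx α).inv_mem h1),
        isConj_iff.2 ⟨_, rfl⟩⟩
    · rw [← hg]
      change (g : G ⧸ fx α).out * (((g : G ⧸ fx α).out⁻¹ * g) * τ * ((g : G ⧸ fx α).out⁻¹ * g)⁻¹) * (g : G ⧸ fx α).out⁻¹ = _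
      group

/-- The subgroup generated by the elements `j ∈ C` with `j t ∈ I`. -/
def Et (α : MulAut G) (τ t : G) : Subgroup G := closure {j | j ∈ fx α ∧ IsConj τ (j * t)}

theorem Et_le (α : MulAut G) (τ t : G) : Et α τ t ≤ fx α := by
  rw [Et, closure_le]; intro j hj; exact hj.1

theorem sq_of_isConj {τ x : G} (hτ : τ * τ = 1) (h : IsConj τ x) : x * x = 1 := by
  obtain ⟨g, hg⟩ := isConj_iff.1 h
  rw [← hg]
  have e : g * τ * g⁻¹ * (g * τ * g⁻¹) = g * (τ * τ) * g⁻¹ := by group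
  rw [e, hτ]; group

theorem conj_inv_of_mem {τ t j : G} (hτ : τ * τ = 1) (ht : IsConj τ t) (h : IsConj τ (j * t)) : t * j * t⁻¹ = j⁻¹ := by
  have h1 := sq_of_isConj hτ ht
  have h2 := sq_of_isConj hτ h
  have h3 : t⁻¹ = t := inv_eq_of_mul_eq_one_left h1
  rw [h3]
  have h4 : j * (t * j * t) = 1 := by rw [← h2]; group
  exact (inv_eq_of_mul_eq_one_right h4).symm

theorem mem_normalizer_Et [Finite G] {α : MulAut G} {τ t : G} (hτ : τ * τ = 1) (ht : IsConj τ t) :
    t ∈ normalizer (Et α τ t : Set G) := by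
  have h1 : ∀ x ∈ Et α τ t, t * x * t⁻¹ ∈ Et α τ t := by
    intro x hx
    induction hx using closure_induction with
    | mem j hj => rw [conj_inv_of_mem hτ ht hj.2]; exact inv_mem (subset_closure hj)
    | one => rw [mul_one, mul_inv_cancel]; exact one_mem _
    | mul x y _ _ hx hy =>
      have e : t * (x * y) * t⁻¹ = (t * x * t⁻¹) * (t * y * t⁻¹) := by group
      rw [e]; exact mul_mem hx hy
    | inv x _ hx =>
      have e : t * x⁻¹ * t⁻¹ = (t * x * t⁻¹)⁻¹ := by group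
      rw [e]; exact inv_mem hx
  rw [mem_normalizer_iff]
  intro x
  refine ⟨h1 x, fun h => ?_⟩
  have h2 := h1 _ h
  have h3 : t⁻¹ = t := inv_eq_of_mul_eq_one_left (sq_of_isConj hτ ht)
  have e : t * (t * x * t⁻¹) * t⁻¹ = (t * t) * x * (t * t)⁻¹ := by group
  rw [e, sq_of_isConj hτ ht] at h2
  simpa using h2

/-- The subgroup generated by the products `t₁ t₂`. -/
def Epr (α : MulAut G) (τ : G) : Subgroup G :=
  closure {z | ∃ t₁ t₂ : G, t₁ ∈ fx α ∧ IsConj τ t₁ ∧ t₂ ∈ fx α ∧ IsConj τ t₂ ∧ z = t₁ * t₂}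

theorem Epr_le (α : MulAut G) (τ : G) : Epr α τ ≤ fx α := by
  rw [Epr, closure_le]
  rintro z ⟨t₁, t₂, h1, -, h2, -, rfl⟩
  exact (fx α).mul_mem h1 h2

/-- the key step -/
theorem Et_eq [Finite G] {α : MulAut G} {p : ℕ} [hp : Fact p.Prime] (hα : α ^ p = 1)
    (hpG : ¬ p ∣ Nat.card G) {τ : G} (hτ : orderOf τ = 2) (hC : centralizer {τ} ≤ fx α) {t : G} (ht : IsConj τ t) :
    Et α τ t = Epr α τ := by
  classical
  have := Fintype.ofFinite G
  have hτ2 : τ * τ = 1 := by rw [← pow_two, ← hτ, pow_orderOf_eq_one]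
  have hodd := odd_index hα hpG hτ hC
  -- the map for each conjugate
  have key : ∀ s : G, IsConj τ s → ∃ y ∈ centralizer (Et α τ s : Set G), y * s * y⁻¹ ∈ fx α := by
    intro s hs
    exact factB hα hpG hodd (Et_le α τ s) (sq_of_isConj hτ2 hs) (mem_normalizer_Et hτ2 hs)
  set IF := Finset.univ.filter (fun x : G => IsConj τ x) with hIF
  set CF := Finset.univ.filter (fun x : G => x ∈ fx α ∧ IsConj τ x) with hCF
  have hfib : ∀ s : G, IsConj τ s → ∀ x ∈ IF.filter (fun x : G => (x : G ⧸ fx α) = (s : G ⧸ fx α)),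
      x * s ∈ fx α ∧ IsConj τ (x * s * s) := by
    intro s hs x hx
    rw [Finset.mem_filter, hIF, Finset.mem_filter, eq_comm, QuotientGroup.eq] at hx
    have h1 := (fx α).inv_mem hx.2
    rw [mul_inv_rev, inv_inv, inv_eq_of_mul_eq_one_left (sq_of_isConj hτ2 hx.1.2)] at h1
    refine ⟨h1, ?_⟩
    rw [mul_assoc, sq_of_isConj hτ2 hs, mul_one]
    exact hx.1.2
  have himg : ∀ s : G, IsConj τ s → ∀ y ∈ centralizer (Et α τ s : Set G), y * s * y⁻¹ ∈ fx α →
      ((IF.filter (fun x : G => (x : G ⧸ fx α) = (s : G ⧸ fx α))).image (fun x => y * x * y⁻¹) ⊆ CF) := by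
    intro s hs y hy hys z hz
    rw [Finset.mem_image] at hz
    obtain ⟨x, hx, rfl⟩ := hz
    obtain ⟨h1, h2⟩ := hfib s hs x hx
    rw [hCF, Finset.mem_filter]
    rw [Finset.mem_filter, hIF, Finset.mem_filter] at hx
    have h3 : y * (x * s) = (x * s) * y := ((mem_centralizer_iff.1 hy) (x * s) (subset_closure ⟨h1, h2⟩)).symm
    refine ⟨Finset.mem_univ _, ?_, hx.1.2.trans (isConj_iff.2 ⟨y, rfl⟩)⟩
    have e : y * x * y⁻¹ = y * (x * s) * y⁻¹ * (y * s⁻¹ * y⁻¹) := by group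
    rw [e, h3, mul_inv_cancel_right, inv_eq_of_mul_eq_one_left (sq_of_isConj hτ2 hs)]
    exact (fx α).mul_mem h1 hys
  have hle : ∀ q ∈ (Finset.univ : Finset (G ⧸ fx α)),
      (IF.filter (fun x : G => (x : G ⧸ fx α) = q)).card ≤ CF.card := by
    intro q _
    rcases (IF.filter (fun x : G => (x : G ⧸ fx α) = q)).eq_empty_or_nonempty with h | ⟨s, hs⟩
    · rw [h, Finset.card_empty]; exact Nat.zero_le _
    · rw [Finset.mem_filter, hIF, Finset.mem_filter] at hs
      obtain ⟨⟨-, hs⟩, rfl⟩ := hs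
      obtain ⟨y, hy, hys⟩ := key s hs
      have h1 := Finset.card_le_card (himg s hs y hy hys)
      rwa [Finset.card_image_of_injective _ (fun a b hab => mul_left_cancel (mul_right_cancel hab))] at h1
  have hsum : ∑ q ∈ (Finset.univ : Finset (G ⧸ fx α)), (IF.filter (fun x : G => (x : G ⧸ fx α) = q)).card =
      ∑ q ∈ (Finset.univ : Finset (G ⧸ fx α)), CF.card := by
    rw [← Finset.card_eq_sum_card_fiberwise (fun x _ => Finset.mem_coe.2 (Finset.mem_univ _)), Finset.sum_const,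
      smul_eq_mul, Finset.card_univ]
    exact card_conj_eq hα hpG hC
  have heq := (Finset.sum_eq_sum_iff_of_le hle).1 hsum
  obtain ⟨y, hy, hyt⟩ := key t ht
  have himgt := himg t ht y hy hyt
  have heqt : (IF.filter (fun x : G => (x : G ⧸ fx α) = (t : G ⧸ fx α))).image (fun x => y * x * y⁻¹) = CF := by
    apply Finset.eq_of_subset_of_card_le himgt
    rw [Finset.card_image_of_injective _ (fun a b hab => mul_left_cancel (mul_right_cancel hab)),
      heq _ (Finset.mem_univ _)]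
  -- every `t₁ ∈ I ∩ C` is `j * (y t y⁻¹)`
  have hrep : ∀ t₁ : G, t₁ ∈ fx α → IsConj τ t₁ → ∃ j, j ∈ fx α ∧ IsConj τ (j * t) ∧ t₁ = j * (y * t * y⁻¹) := by
    intro t₁ h1 h2
    have h3 : t₁ ∈ CF := by rw [hCF, Finset.mem_filter]; exact ⟨Finset.mem_univ _, h1, h2⟩
    rw [← heqt, Finset.mem_image] at h3
    obtain ⟨x, hx, rfl⟩ := h3
    obtain ⟨h4, h5⟩ := hfib t ht x hx
    refine ⟨x * t, h4, h5, ?_⟩
    have h6 : y * (x * t) = (x * t) * y := ((mem_centralizer_iff.1 hy) (x * t) (subset_closure ⟨h4, h5⟩)).symm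
    have e : y * x * y⁻¹ = y * (x * t) * y⁻¹ * (y * t⁻¹ * y⁻¹) := by group
    rw [e, h6, mul_inv_cancel_right, inv_eq_of_mul_eq_one_left (sq_of_isConj hτ2 ht)]
  have ht0 : IsConj τ (y * t * y⁻¹) := ht.trans (isConj_iff.2 ⟨y, rfl⟩)
  have ht00 := sq_of_isConj hτ2 ht0
  apply le_antisymm
  · rw [Et, closure_le]
    rintro j ⟨h1, h2⟩
    have h3 : y * j = j * y := ((mem_centralizer_iff.1 hy) j (subset_closure ⟨h1, h2⟩)).symm
    have h4 : IsConj τ (j * (y * t * y⁻¹)) := by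
      have e : j * (y * t * y⁻¹) = y * (j * t) * y⁻¹ := by
        rw [← mul_assoc, ← mul_assoc, ← h3]; group
      rw [e]; exact h2.trans (isConj_iff.2 ⟨y, rfl⟩)
    apply Subgroup.subset_closure
    refine ⟨j * (y * t * y⁻¹), y * t * y⁻¹, (fx α).mul_mem h1 hyt, h4, hyt, ht0, ?_⟩
    rw [mul_assoc, ht00, mul_one]
  · rw [Epr, closure_le]
    rintro z ⟨t₁, t₂, h1, h2, h3, h4, rfl⟩
    obtain ⟨j₁, h5, h6, rfl⟩ := hrep t₁ h1 h2
    obtain ⟨j₂, h7, h8, rfl⟩ := hrep t₂ h3 h4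
    have h9 : y * j₂ = j₂ * y := ((mem_centralizer_iff.1 hy) j₂ (subset_closure ⟨h7, h8⟩)).symm
    have h10 := conj_inv_of_mem hτ2 ht0 h4
    have e : j₁ * (y * t * y⁻¹) * (j₂ * (y * t * y⁻¹)) = j₁ * j₂⁻¹ := by
      rw [← h10, inv_eq_of_mul_eq_one_left ht00]; group
    rw [e]
    exact mul_mem (subset_closure ⟨h5, h6⟩) (inv_mem (subset_closure ⟨h7, h8⟩))

/-- If moreover `G` is simple and `α ≠ 1`, then `I ∩ C` is a single element. -/
theorem subsingleton [Finite G] [IsSimpleGroup G] {α : MulAut G} {p : ℕ} [hp : Fact p.Prime] (hα : α ^ p = 1)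
    (hα1 : α ≠ 1) (hpG : ¬ p ∣ Nat.card G) {τ : G} (hτ : orderOf τ = 2) (hC : centralizer {τ} ≤ fx α) {t₁ t₂ : G}
    (h1 : t₁ ∈ fx α) (h2 : IsConj τ t₁) (h3 : t₂ ∈ fx α) (h4 : IsConj τ t₂) : t₁ = t₂ := by
  have hτ2 : τ * τ = 1 := by rw [← pow_two, ← hτ, pow_orderOf_eq_one]
  have hN : normalizer (Epr α τ : Set G) = ⊤ := by
    have hcl : normalClosure ({τ} : Set G) = ⊤ := by
      rcases (normalClosure_normal (s := ({τ} : Set G))).eq_bot_or_eq_top with h | h
      · exfalso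
        have h5 : τ ∈ normalClosure ({τ} : Set G) := subset_normalClosure rfl
        rw [h, mem_bot] at h5
        rw [h5, orderOf_one] at hτ
        omega
      · exact h
    rw [eq_top_iff, ← hcl, normalClosure, closure_le]
    intro t ht
    have h5 : IsConj τ t := by
      rw [Group.mem_conjugatesOfSet_iff] at ht
      obtain ⟨a, ha, h⟩ := ht
      rw [Set.mem_singleton_iff] at ha
      rwa [ha] at h
    have h6 := mem_normalizer_Et (α := α) hτ2 h5
    rwa [Et_eq hα hpG hτ hC h5] at h6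
  have hnorm : (Epr α τ).Normal := normalizer_eq_top_iff.1 hN
  have hbot : Epr α τ = ⊥ := by
    rcases hnorm.eq_bot_or_eq_top with h | h
    · exact h
    · exfalso
      have h5 : fx α = ⊤ := top_le_iff.1 (h ▸ Epr_le α τ)
      apply hα1
      ext g
      have : g ∈ fx α := by rw [h5]; trivial
      exact this
  have h5 : t₁ * t₂ ∈ Epr α τ := subset_closure ⟨t₁, t₂, h1, h2, h3, h4, rfl⟩
  rw [hbot, mem_bot] at h5
  rw [← inv_eq_of_mul_eq_one_left (sq_of_isConj hτ2 h2)]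
  exact inv_eq_of_mul_eq_one_right h5

end Cfsg.Agent.Lib.CopInvCent
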