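import Mathlib
import Cfsg.Agent.Lib.CyclicProd

set_option autoImplicit false

/-!
Definitions for the covering number of `PSL_n(F)` (S2483).
-/

namespace Cfsg.Agent.Lib.CovDefs

open Module Polynomial Cfsg.Agent.Lib.CyclicProd

universe u

variable {F : Type u} [Field F] {V : Type u} [AddCommGroup V] [Module F V]

/-- `IP A cs M`: `M` is a product of conjugates `g_i A g_i⁻¹` with `det g_i = c_i`. -/
def IP (A : V ≃ₗ[F] V) : List Fˣ → (V ≃ₗ[F] V) → Prop
  | [], M => M = 1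
  | c :: cs, M => ∃ g P : V ≃ₗ[F] V, LinearEquiv.det g = c ∧ IP A cs P ∧ M = g * A * g⁻¹ * P

/-- strong: every choice of determinants. -/
def SP (A : V ≃ₗ[F] V) (k : ℕ) (M : V ≃ₗ[F] V) : Prop :=
  ∀ cs : List Fˣ, cs.length = k → IP A cs M

/-- weak: some choice of determinants. -/
def WP (A : V ≃ₗ[F] V) (k : ℕ) (M : V ≃ₗ[F] V) : Prop :=
  ∃ cs : List Fˣ, cs.length = k ∧ IP A cs M

/-- similarity of operators. -/
def Sim {W : Type u} [AddCommGroup W] [Module F W] (A : V ≃ₗ[F] V) (B : W ≃ₗ[F] W) : Prop :=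
  ∃ e : V ≃ₗ[F] W, ∀ x, e (A x) = B (e x)

/-- `A` is cyclic with characteristic polynomial `p`. -/
def Cyc (A : V ≃ₗ[F] V) (p : F[X]) : Prop :=
  p.Monic ∧ p.natDegree = finrank F V ∧ (∃ v, CycVec A.toLinearMap v) ∧
    aeval A.toLinearMap p = 0

/-- non-scalar. -/
def NS (A : V ≃ₗ[F] V) : Prop := ∃ u, ∀ c : F, A u ≠ c • u

/-- `p` has a simple root in `F`. -/
def SR (p : F[X]) : Prop := ∃ (c : F) (p' : F[X]), p = p' * (X - C c) ∧ p'.eval c ≠ 0

/-- scalar operator -/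
def sc (V : Type u) [AddCommGroup V] [Module F V] (l : Fˣ) : V ≃ₗ[F] V :=
  LinearEquiv.smulOfUnit l

/-- block sum -/
def bs {U W : Type u} [AddCommGroup U] [Module F U] [AddCommGroup W] [Module F W]
    (A : U ≃ₗ[F] U) (B : W ≃ₗ[F] W) : (U × W) ≃ₗ[F] (U × W) := A.prodCongr B

/-- the centralizer of `A` has all determinants. -/
def Full (A : V ≃ₗ[F] V) : Prop := ∀ γ : Fˣ, ∃ g : V ≃ₗ[F] V, LinearEquiv.det g = γ ∧ g * A = A * g

/-- `A` is a scalar plus an operator of rank `≤ 1`. -/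
def Slow (A : V ≃ₗ[F] V) : Prop :=
  ∃ l : F, finrank F (LinearMap.range (A.toLinearMap - l • LinearMap.id)) ≤ 1

end Cfsg.Agent.Lib.CovDefs
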