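import Mathlib
import Cfsg.Agent.Lib.CovDefs
import Cfsg.Agent.Lib.CyclicComm

set_option autoImplicit false

namespace Cfsg.Agent.Lib.CovDefs

open Module Polynomial Cfsg.Agent.Lib.CyclicProd

universe u

variable {F : Type u} [Field F] {V : Type u} [AddCommGroup V] [Module F V]

theorem IP.conj {A M : V ≃ₗ[F] V} {cs : List Fˣ} (h : IP A cs M) (g : V ≃ₗ[F] V) :
    IP A (cs.map (LinearEquiv.det g * ·)) (g * M * g⁻¹) := by
  induction cs generalizing M with
  | nil =>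
    have h : M = 1 := h
    subst h
    change g * 1 * g⁻¹ = 1
    simp
  | cons c cs ih =>
    obtain ⟨x, P, hx, hP, rfl⟩ := h
    refine ⟨g * x, g * P * g⁻¹, by rw [map_mul, hx], ih hP, ?_⟩
    group

theorem IP.append {A M M' : V ≃ₗ[F] V} {cs cs' : List Fˣ} (h : IP A cs M) (h' : IP A cs' M') :
    IP A (cs ++ cs') (M * M') := by
  induction cs generalizing M with
  | nil =>
    have h : M = 1 := h
    subst h
    simpa using h'
  | cons c cs ih =>
    obtain ⟨x, P, hx, hP, rfl⟩ := h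
    exact ⟨x, P * M', hx, ih hP, by group⟩

theorem IP.det {A M : V ≃ₗ[F] V} {cs : List Fˣ} (h : IP A cs M) :
    LinearEquiv.det M = LinearEquiv.det A ^ cs.length := by
  induction cs generalizing M with
  | nil =>
    have h : M = 1 := h
    subst h
    simp
  | cons c cs ih =>
    obtain ⟨x, P, hx, hP, rfl⟩ := h
    rw [map_mul, map_mul, map_mul, map_inv, ih hP, List.length_cons, pow_succ]
    rw [mul_comm (LinearEquiv.det x), mul_assoc (LinearEquiv.det A), mul_inv_cancel, mul_one,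
      mul_comm]

/-- adjusting the determinants when `A` is full. -/
theorem IP.of_full {A M : V ≃ₗ[F] V} (hA : Full A) {cs : List Fˣ} (h : IP A cs M) :
    ∀ cs' : List Fˣ, cs'.length = cs.length → IP A cs' M := by
  induction cs generalizing M with
  | nil =>
    intro cs' h'
    have : cs' = [] := List.eq_nil_of_length_eq_zero (by simpa using h')
    subst this
    exact h
  | cons c cs ih =>
    intro cs' h'
    obtain ⟨x, P, hx, hP, rfl⟩ := h
    match cs', h' with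
    | c' :: cs', h' =>
      obtain ⟨z, hz, hzA⟩ := hA (c⁻¹ * c')
      refine ⟨x * z, P, ?_, ih hP cs' (by simpa using h'), ?_⟩
      · rw [map_mul, hx, hz, mul_inv_cancel_left]
      · have : x * z * A * (x * z)⁻¹ = x * (z * A) * z⁻¹ * x⁻¹ := by group
        rw [this, hzA]
        group

theorem SP.conj {A M : V ≃ₗ[F] V} {k : ℕ} (h : SP A k M) (g : V ≃ₗ[F] V) :
    SP A k (g * M * g⁻¹) := by
  intro cs hcs
  have h1 := IP.conj (h (cs.map ((LinearEquiv.det g)⁻¹ * ·)) (by simpa using hcs)) g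
  rw [List.map_map] at h1
  have h2 : ((fun x => LinearEquiv.det g * x) ∘ fun x => (LinearEquiv.det g)⁻¹ * x) = id := by
    funext x
    simp
  rw [h2, List.map_id] at h1
  exact h1

theorem WP.conj {A M : V ≃ₗ[F] V} {k : ℕ} (h : WP A k M) (g : V ≃ₗ[F] V) :
    WP A k (g * M * g⁻¹) := by
  obtain ⟨cs, hcs, h⟩ := h
  exact ⟨_, by simpa using hcs, h.conj g⟩

theorem SP.mul {A M : V ≃ₗ[F] V} {k l : ℕ} {M' : V ≃ₗ[F] V} (h : SP A k M) (h' : SP A l M') :
    SP A (k + l) (M * M') := by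
  intro cs hcs
  have h1 := IP.append (h (cs.take k) (by simp [hcs])) (h' (cs.drop k) (by simp [hcs]))
  rwa [List.take_append_drop] at h1

theorem WP.mul {A M : V ≃ₗ[F] V} {k l : ℕ} {M' : V ≃ₗ[F] V} (h : WP A k M) (h' : WP A l M') :
    WP A (k + l) (M * M') := by
  obtain ⟨cs, hcs, h⟩ := h
  obtain ⟨cs', hcs', h'⟩ := h'
  exact ⟨cs ++ cs', by simp [hcs, hcs'], h.append h'⟩

theorem SP.wp {A M : V ≃ₗ[F] V} {k : ℕ} (h : SP A k M) : WP A k M :=
  ⟨List.replicate k 1, by simp, h _ (by simp)⟩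

theorem WP.sp_of_full {A M : V ≃ₗ[F] V} {k : ℕ} (hA : Full A) (h : WP A k M) : SP A k M := by
  obtain ⟨cs, hcs, h⟩ := h
  intro cs' hcs'
  exact h.of_full hA cs' (by rw [hcs, hcs'])

theorem WP.det {A M : V ≃ₗ[F] V} {k : ℕ} (h : WP A k M) :
    LinearEquiv.det M = LinearEquiv.det A ^ k := by
  obtain ⟨cs, hcs, h⟩ := h
  rw [h.det, hcs]

theorem WP.one (A : V ≃ₗ[F] V) : WP A 1 A :=
  ⟨[1], rfl, 1, 1, map_one _, rfl, by simp⟩

theorem WP.zero (A : V ≃ₗ[F] V) : WP A 0 1 := ⟨[], rfl, rfl⟩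

/-- changing the last determinant freely: from `k` strong factors and any conjugate. -/
theorem SP.cons {A E : V ≃ₗ[F] V} {k : ℕ} (h : SP A k E) {c : Fˣ} {cs : List Fˣ}
    (hcs : cs.length = k) (g : V ≃ₗ[F] V) (hg : LinearEquiv.det g = c) :
    IP A (c :: cs) (g * A * g⁻¹ * E) := ⟨g, E, hg, h cs hcs, rfl⟩

section FD

variable [FiniteDimensional F V]

theorem Cyc.similar {V W : Type u} [AddCommGroup V] [Module F V] [FiniteDimensional F V]
    [AddCommGroup W] [Module F W] [FiniteDimensional F W] {A : V ≃ₗ[F] V}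
    {B : W ≃ₗ[F] W} {p : F[X]} (h : Cyc A p) (h' : Cyc B p) : Sim A B := by
  obtain ⟨hm, hd, ⟨v, hv⟩, h0⟩ := h
  obtain ⟨_, hd', ⟨w, hw⟩, h0'⟩ := h'
  exact similar_of_cycVec hv hw hm hd hd' h0 h0'

theorem Cyc.sim {A : V ≃ₗ[F] V} {W : Type u} [AddCommGroup W] [Module F W]
    [FiniteDimensional F W]
    {B : W ≃ₗ[F] W} {p : F[X]} (h : Cyc A p) (h' : Cyc B p) : Sim A B := Cyc.similar h h'

theorem Cyc.conj_of {A B : V ≃ₗ[F] V} {p : F[X]} (h : Cyc A p) (h' : Cyc B p) :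
    ∃ g : V ≃ₗ[F] V, B = g * A * g⁻¹ := by
  obtain ⟨e, he⟩ := h.sim h'
  refine ⟨e, ?_⟩
  rw [eq_mul_inv_iff_mul_eq]
  ext x
  exact (he x).symm

theorem Cyc.det {A : V ≃ₗ[F] V} {p : F[X]} (h : Cyc A p) :
    (LinearEquiv.det A : F) = (-1) ^ finrank F V * p.coeff 0 := by
  obtain ⟨hm, hd, ⟨v, hv⟩, h0⟩ := h
  rw [← hv.det_eq hm hd h0, LinearEquiv.coe_det]

omit [FiniteDimensional F V] in
theorem aeval_conj (g : V ≃ₗ[F] V) (T : V →ₗ[F] V) (p : F[X]) :
    aeval (g.toLinearMap ∘ₗ T ∘ₗ g.symm.toLinearMap) p =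
      g.toLinearMap ∘ₗ (aeval T p) ∘ₗ g.symm.toLinearMap := by
  have h := Polynomial.aeval_algHom_apply (LinearEquiv.conjAlgEquiv F g).toAlgHom T p
  exact h

theorem Cyc.conj {A : V ≃ₗ[F] V} {p : F[X]} (h : Cyc A p) (g : V ≃ₗ[F] V) :
    Cyc (g * A * g⁻¹) p := by
  obtain ⟨hm, hd, ⟨v, hv⟩, h0⟩ := h
  refine ⟨hm, hd, ⟨g v, ?_⟩, ?_⟩
  · intro W hW1 hW2
    have h1 : W.comap g.toLinearMap = ⊤ := by
      apply hv
      · exact hW1
      · intro w hw
        have := hW2 (g w) hw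
        have e : (g * A * g⁻¹ : V ≃ₗ[F] V) (g w) = g (A w) := by
          rw [LinearEquiv.mul_apply, LinearEquiv.mul_apply]
          congr 2
          exact g.symm_apply_apply w
        rw [LinearEquiv.coe_coe, e] at this
        exact this
    rw [eq_top_iff]
    intro w _
    have h2 : g.symm w ∈ W.comap g.toLinearMap := by rw [h1]; trivial
    simpa using h2
  · have e : (g * A * g⁻¹ : V ≃ₗ[F] V).toLinearMap =
        g.toLinearMap ∘ₗ A.toLinearMap ∘ₗ g.symm.toLinearMap := rfl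
    rw [e, aeval_conj, h0]
    simp

theorem Cyc.ns {A : V ≃ₗ[F] V} {p : F[X]} (h : Cyc A p) (h2 : 2 ≤ finrank F V) : NS A := by
  obtain ⟨hm, hd, ⟨v, hv⟩, h0⟩ := h
  refine ⟨v, fun c hc => ?_⟩
  have h1 : Submodule.span F {v} = ⊤ := by
    apply hv
    · exact Submodule.mem_span_singleton_self v
    · intro w hw
      obtain ⟨a, rfl⟩ := Submodule.mem_span_singleton.1 hw
      rw [LinearEquiv.coe_coe, map_smul, hc, smul_smul]
      exact Submodule.smul_mem _ _ (Submodule.mem_span_singleton_self v)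
  have h3 : finrank F (Submodule.span F {v}) ≤ 1 := by
    have := finrank_span_le_card (R := F) ({v} : Set V)
    simpa using this
  rw [h1, finrank_top] at h3
  omega

end FD

end Cfsg.Agent.Lib.CovDefs
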