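import Mathlib
import Cfsg.Agent.Lib.CovBas

set_option autoImplicit false

namespace Cfsg.Agent.Lib.CovDefs

open Module Polynomial Cfsg.Agent.Lib.CyclicProd

universe u

variable {F : Type u} [Field F] {V : Type u} [AddCommGroup V] [Module F V]

section Sim

variable {W : Type u} [AddCommGroup W] [Module F W]

theorem trans_eq_of_sim {A : V ≃ₗ[F] V} {B : W ≃ₗ[F] W}
    (e : V ≃ₗ[F] W) (he : ∀ x, e (A x) = B (e x)) : (e.symm.trans A).trans e = B := by
  ext x
  simp [he]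

theorem IP.of_sim {A M : V ≃ₗ[F] V} {B : W ≃ₗ[F] W}
    (e : V ≃ₗ[F] W) (he : ∀ x, e (A x) = B (e x)) {cs : List Fˣ} (h : IP A cs M) :
    IP B cs ((e.symm.trans M).trans e) := by
  induction cs generalizing M with
  | nil =>
    have h : M = 1 := h
    subst h
    change _ = _
    ext x
    simp
  | cons c cs ih =>
    obtain ⟨x, P, hx, hP, rfl⟩ := h
    refine ⟨(e.symm.trans x).trans e, (e.symm.trans P).trans e, ?_, ih hP, ?_⟩
    · rw [← hx]
      exact LinearEquiv.det_conj x e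
    · have hB := trans_eq_of_sim e he
      rw [← hB]
      ext y
      have h1 : ∀ g : V ≃ₗ[F] V, ((e.symm.trans g).trans e)⁻¹ = (e.symm.trans g⁻¹).trans e := by
        intro g
        ext z
        rfl
      rw [h1]
      simp [LinearEquiv.mul_apply]

theorem SP.of_sim {A M : V ≃ₗ[F] V} {B : W ≃ₗ[F] W}
    (e : V ≃ₗ[F] W) (he : ∀ x, e (A x) = B (e x)) {k : ℕ} :
    SP A k M ↔ SP B k ((e.symm.trans M).trans e) := by
  constructor
  · intro h cs hcs
    exact (h cs hcs).of_sim e he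
  · intro h cs hcs
    have h1 := (h cs hcs).of_sim e.symm (fun x => by
      rw [LinearEquiv.symm_apply_eq, he, LinearEquiv.apply_symm_apply])
    have h2 : ((e.symm.symm.trans ((e.symm.trans M).trans e)).trans e.symm) = M := by
      ext x
      simp
    rwa [h2] at h1

theorem WP.of_sim {A M : V ≃ₗ[F] V} {B : W ≃ₗ[F] W}
    (e : V ≃ₗ[F] W) (he : ∀ x, e (A x) = B (e x)) {k : ℕ} :
    WP A k M ↔ WP B k ((e.symm.trans M).trans e) := by
  constructor
  · rintro ⟨cs, hcs, h⟩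
    exact ⟨cs, hcs, h.of_sim e he⟩
  · rintro ⟨cs, hcs, h⟩
    have h1 := h.of_sim e.symm (fun x => by
      rw [LinearEquiv.symm_apply_eq, he, LinearEquiv.apply_symm_apply])
    have h2 : ((e.symm.symm.trans ((e.symm.trans M).trans e)).trans e.symm) = M := by
      ext x
      simp
    rw [h2] at h1
    exact ⟨cs, hcs, h1⟩

theorem NS.of_sim {A : V ≃ₗ[F] V} {B : W ≃ₗ[F] W} (h : Sim A B) (hA : NS A) : NS B := by
  obtain ⟨e, he⟩ := h
  obtain ⟨u, hu⟩ := hA
  refine ⟨e u, fun c hc => hu c ?_⟩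
  apply e.injective
  rw [he, hc, map_smul]

theorem Sim.symm {A : V ≃ₗ[F] V} {B : W ≃ₗ[F] W} (h : Sim A B) : Sim B A := by
  obtain ⟨e, he⟩ := h
  exact ⟨e.symm, fun x => by rw [LinearEquiv.symm_apply_eq, he, LinearEquiv.apply_symm_apply]⟩

theorem Sim.trans {X : Type u} [AddCommGroup X] [Module F X] {A : V ≃ₗ[F] V} {B : W ≃ₗ[F] W}
    {D : X ≃ₗ[F] X} (h : Sim A B) (h' : Sim B D) : Sim A D := by
  obtain ⟨e, he⟩ := h
  obtain ⟨e', he'⟩ := h'
  exact ⟨e.trans e', fun x => by simp [he, he']⟩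

theorem Sim.refl (A : V ≃ₗ[F] V) : Sim A A := ⟨LinearEquiv.refl F V, fun x => rfl⟩

theorem Sim.det {A : V ≃ₗ[F] V} {B : W ≃ₗ[F] W} (h : Sim A B) :
    LinearEquiv.det A = LinearEquiv.det B := by
  obtain ⟨e, he⟩ := h
  rw [← trans_eq_of_sim e he]
  exact (LinearEquiv.det_conj A e).symm

theorem Full.of_sim {A : V ≃ₗ[F] V} {B : W ≃ₗ[F] W} (h : Sim A B) (hA : Full A) : Full B := by
  obtain ⟨e, he⟩ := h
  intro γ
  obtain ⟨g, hg, hgA⟩ := hA γ
  refine ⟨(e.symm.trans g).trans e, ?_, ?_⟩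
  · rw [← hg]
    exact LinearEquiv.det_conj g e
  · rw [← trans_eq_of_sim e he]
    ext y
    have := congrArg (fun f : V ≃ₗ[F] V => f (e.symm y)) hgA
    simp only [LinearEquiv.mul_apply] at this
    simp [LinearEquiv.mul_apply, this]

theorem Sim.inv {A : V ≃ₗ[F] V} {B : W ≃ₗ[F] W} (h : Sim A B) : Sim A⁻¹ B⁻¹ := by
  obtain ⟨e, he⟩ := h
  refine ⟨e, fun x => ?_⟩
  have h1 : B (e (A⁻¹ x)) = e x := by
    rw [← he]
    exact congrArg e (A.apply_symm_apply x)
  have h2 : B⁻¹ (B (e (A⁻¹ x))) = e (A⁻¹ x) := B.symm_apply_apply _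
  rw [← h2, h1]

end Sim

section Bs

variable {U W : Type u} [AddCommGroup U] [Module F U] [AddCommGroup W] [Module F W]

theorem bs_apply (A : U ≃ₗ[F] U) (B : W ≃ₗ[F] W) (x : U × W) : bs A B x = (A x.1, B x.2) := rfl

theorem bs_mul (A A' : U ≃ₗ[F] U) (B B' : W ≃ₗ[F] W) :
    bs A B * bs A' B' = bs (A * A') (B * B') := rfl

theorem bs_inv (A : U ≃ₗ[F] U) (B : W ≃ₗ[F] W) : (bs A B)⁻¹ = bs A⁻¹ B⁻¹ := rfl

theorem bs_one : bs (1 : U ≃ₗ[F] U) (1 : W ≃ₗ[F] W) = 1 := rfl

theorem bs_det [FiniteDimensional F U] [FiniteDimensional F W] (A : U ≃ₗ[F] U)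
    (B : W ≃ₗ[F] W) : LinearEquiv.det (bs A B) = LinearEquiv.det A * LinearEquiv.det B := by
  apply Units.ext
  rw [LinearEquiv.coe_det, Units.val_mul, LinearEquiv.coe_det, LinearEquiv.coe_det]
  exact LinearMap.det_prodMap A.toLinearMap B.toLinearMap

theorem WP.bs_sp [FiniteDimensional F U] [FiniteDimensional F W] {A₁ D₁ : U ≃ₗ[F] U}
    {A₂ D₂ : W ≃ₗ[F] W}
    {k : ℕ} (h₁ : WP A₁ k D₁) (h₂ : SP A₂ k D₂) : SP (bs A₁ A₂) k (bs D₁ D₂) := by
  obtain ⟨cs, hcs, h₁⟩ := h₁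
  intro cs' hcs'
  have key : ∀ (cs : List Fˣ) (D₁ : U ≃ₗ[F] U) (D₂ : W ≃ₗ[F] W) (cs' : List Fˣ),
      cs'.length = cs.length → IP A₁ cs D₁ → IP A₂ (List.zipWith (fun a b => b * a⁻¹) cs cs') D₂ →
      IP (bs A₁ A₂) cs' (bs D₁ D₂) := by
    intro cs
    induction cs with
    | nil =>
      intro D₁ D₂ cs' h' h1 h2
      have : cs' = [] := List.eq_nil_of_length_eq_zero (by simpa using h')
      subst this
      have h1 : D₁ = 1 := h1
      have h2 : D₂ = 1 := h2
      subst h1; subst h2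
      rfl
    | cons c cs ih =>
      intro D₁ D₂ cs' h' h1 h2
      match cs', h' with
      | c' :: cs', h' =>
        rw [List.zipWith_cons_cons] at h2
        obtain ⟨x, P, hx, hP, rfl⟩ := h1
        obtain ⟨y, Q, hy, hQ, rfl⟩ := h2
        refine ⟨bs x y, bs P Q, ?_, ih P Q cs' (by simpa using h') hP hQ, ?_⟩
        · rw [bs_det, hx, hy]
          rw [mul_comm c, inv_mul_cancel_right]
        · rw [bs_inv, bs_mul, bs_mul, bs_mul]
  exact key cs D₁ D₂ cs' (by rw [hcs, hcs']) h₁ (h₂ _ (by simp [hcs, hcs']))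

theorem WP.bs [FiniteDimensional F U] [FiniteDimensional F W] {A₁ D₁ : U ≃ₗ[F] U}
    {A₂ D₂ : W ≃ₗ[F] W}
    {k : ℕ} (h₁ : WP A₁ k D₁) (h₂ : WP A₂ k D₂) :
    WP (CovDefs.bs A₁ A₂) k (CovDefs.bs D₁ D₂) := by
  obtain ⟨cs, hcs, h₁⟩ := h₁
  obtain ⟨cs', hcs', h₂⟩ := h₂
  have key : ∀ (cs : List Fˣ) (D₁ : U ≃ₗ[F] U) (D₂ : W ≃ₗ[F] W) (cs' : List Fˣ),
      cs'.length = cs.length → IP A₁ cs D₁ → IP A₂ cs' D₂ →
      IP (CovDefs.bs A₁ A₂) (List.zipWith (· * ·) cs cs') (CovDefs.bs D₁ D₂) := by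
    intro cs
    induction cs with
    | nil =>
      intro D₁ D₂ cs' h' h1 h2
      have : cs' = [] := List.eq_nil_of_length_eq_zero (by simpa using h')
      subst this
      have h1 : D₁ = 1 := h1
      have h2 : D₂ = 1 := h2
      subst h1; subst h2
      rfl
    | cons c cs ih =>
      intro D₁ D₂ cs' h' h1 h2
      match cs', h' with
      | c' :: cs', h' =>
        obtain ⟨x, P, hx, hP, rfl⟩ := h1
        obtain ⟨y, Q, hy, hQ, rfl⟩ := h2
        refine ⟨CovDefs.bs x y, CovDefs.bs P Q, ?_, ih P Q cs' (by simpa using h') hP hQ, ?_⟩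
        · rw [bs_det, hx, hy]
        · rw [bs_inv, bs_mul, bs_mul, bs_mul]
  exact ⟨_, by simp [hcs, hcs'], key cs D₁ D₂ cs' (by rw [hcs, hcs']) h₁ h₂⟩

theorem finrank_bs [FiniteDimensional F U] [FiniteDimensional F W] :
    finrank F (U × W) = finrank F U + finrank F W := Module.finrank_prod

theorem toLinearMap_bs (A : U ≃ₗ[F] U) (B : W ≃ₗ[F] W) :
    (bs A B).toLinearMap = A.toLinearMap.prodMap B.toLinearMap := rfl

theorem aeval_prodMap (S : U →ₗ[F] U) (T : W →ₗ[F] W) (p : F[X]) :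
    aeval (S.prodMap T) p = (aeval S p).prodMap (aeval T p) := by
  have h1 := Polynomial.aeval_algHom_apply (LinearMap.prodMapAlgHom F U W) (S, T) p
  have h2 : aeval ((S, T) : Module.End F U × Module.End F W) p = (aeval S p, aeval T p) := by
    apply Prod.ext
    · exact Polynomial.aeval_algHom_apply (AlgHom.fst F (Module.End F U) (Module.End F W)) (S, T) p |>.symm
    · exact Polynomial.aeval_algHom_apply (AlgHom.snd F (Module.End F U) (Module.End F W)) (S, T) p |>.symm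
  rw [h2] at h1
  exact h1

theorem Cyc.bs [FiniteDimensional F U] [FiniteDimensional F W] {D₁ : U ≃ₗ[F] U}
    {D₂ : W ≃ₗ[F] W}
    {p q : F[X]} (h₁ : Cyc D₁ p) (h₂ : Cyc D₂ q) (h : IsCoprime p q) :
    Cyc (CovDefs.bs D₁ D₂) (p * q) := by
  obtain ⟨hm1, hd1, ⟨v, hv⟩, h01⟩ := h₁
  obtain ⟨hm2, hd2, ⟨w, hw⟩, h02⟩ := h₂
  refine ⟨hm1.mul hm2, ?_, ⟨(v, w), ?_⟩, ?_⟩
  · rw [hm1.natDegree_mul hm2, hd1, hd2, Module.finrank_prod]
  · obtain ⟨a, b, hab⟩ := h
    intro X hX1 hX2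
    have hpoly : ∀ (g : F[X]) (x : U × W), x ∈ X →
        ((aeval D₁.toLinearMap g) x.1, (aeval D₂.toLinearMap g) x.2) ∈ X := by
      intro g x hx
      have := CycVec.aeval_mem (T := (CovDefs.bs D₁ D₂).toLinearMap) (W := X) hX2 hx g
      rw [toLinearMap_bs, aeval_prodMap] at this
      exact this
    -- (v, 0) ∈ X
    have hv0 : ((v, 0) : U × W) ∈ X := by
      have := hpoly (b * q) (v, w) hX1
      rw [map_mul, map_mul, h02, mul_zero, LinearMap.zero_apply] at this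
      have h3 : (aeval D₁.toLinearMap b * aeval D₁.toLinearMap q) v = v := by
        have h4 : aeval D₁.toLinearMap (a * p + b * q) = 1 := by rw [hab, map_one]
        rw [map_add, map_mul, map_mul, h01, mul_zero, zero_add] at h4
        rw [h4]; rfl
      rwa [h3] at this
    have hw0 : ((0, w) : U × W) ∈ X := by
      have := X.sub_mem hX1 hv0
      simpa using this
    have hU : X.comap (LinearMap.inl F U W) = ⊤ := by
      apply hv
      · exact hv0
      · intro y hy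
        have := hX2 _ hy
        simpa [bs_apply] using this
    have hW : X.comap (LinearMap.inr F U W) = ⊤ := by
      apply hw
      · exact hw0
      · intro y hy
        have := hX2 _ hy
        simpa [bs_apply] using this
    rw [eq_top_iff]
    rintro ⟨y, z⟩ _
    have h5 : y ∈ X.comap (LinearMap.inl F U W) := by rw [hU]; trivial
    have h6 : z ∈ X.comap (LinearMap.inr F U W) := by rw [hW]; trivial
    have := X.add_mem h5 h6
    simpa using this
  · rw [toLinearMap_bs, aeval_prodMap, map_mul, map_mul, h01, h02, zero_mul, mul_zero]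
    ext <;> simp

theorem Full.bs_right [FiniteDimensional F U] [FiniteDimensional F W] {B : W ≃ₗ[F] W}
    (hB : Full B) (A : U ≃ₗ[F] U) : Full (CovDefs.bs A B) := by
  intro γ
  obtain ⟨g, hg, hgB⟩ := hB γ
  refine ⟨CovDefs.bs 1 g, ?_, ?_⟩
  · rw [bs_det, hg, map_one, one_mul]
  · rw [bs_mul, bs_mul, hgB, one_mul, mul_one]

theorem Full.bs_left [FiniteDimensional F U] [FiniteDimensional F W] {A : U ≃ₗ[F] U}
    (hA : Full A) (B : W ≃ₗ[F] W) : Full (CovDefs.bs A B) := by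
  intro γ
  obtain ⟨g, hg, hgA⟩ := hA γ
  refine ⟨CovDefs.bs g 1, ?_, ?_⟩
  · rw [bs_det, hg, map_one, mul_one]
  · rw [bs_mul, bs_mul, hgA, one_mul, mul_one]

theorem Full.sc {E : Type u} [AddCommGroup E] [Module F E] [FiniteDimensional F E]
    (hE : 1 ≤ finrank F E) (l : Fˣ) : Full (sc E l) := by
  intro γ
  -- a diagonal operator of determinant `γ`
  obtain ⟨g, hg⟩ : ∃ g : E ≃ₗ[F] E, LinearEquiv.det g = γ := by
    let b := Module.finBasis F E
    let i₀ : Fin (finrank F E) := ⟨0, hE⟩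
    let M : Matrix (Fin (finrank F E)) (Fin (finrank F E)) F :=
      Matrix.diagonal (fun i => if i = i₀ then (γ : F) else 1)
    have hM : M.det = γ := by
      rw [Matrix.det_diagonal, Finset.prod_ite_eq' Finset.univ i₀ (fun _ => (γ : F))]
      simp
    have hdet : LinearMap.det (Matrix.toLin b b M) = γ := by
      rw [LinearMap.det_toLin, hM]
    have hu : IsUnit (LinearMap.det (Matrix.toLin b b M)) := by rw [hdet]; exact γ.isUnit
    refine ⟨LinearEquiv.ofIsUnitDet (v := b) (v' := b) (f := Matrix.toLin b b M) (by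
      rw [LinearMap.toMatrix_toLin, hM]; exact γ.isUnit), ?_⟩
    apply Units.ext
    rw [LinearEquiv.coe_det]
    exact hdet
  refine ⟨g, hg, ?_⟩
  ext x
  change g (l • x) = l • g x
  rw [Units.smul_def, map_smul]; rfl

theorem Full.bs_sc {E U : Type u} [AddCommGroup E] [Module F E] [FiniteDimensional F E]
    [AddCommGroup U] [Module F U] [FiniteDimensional F U] (hE : 1 ≤ finrank F E) (l : Fˣ)
    (C : U ≃ₗ[F] U) : Full (CovDefs.bs (CovDefs.sc E l) C) :=
  Full.bs_left (Full.sc hE l) C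

end Bs

end Cfsg.Agent.Lib.CovDefs
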