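import Mathlib
import Cfsg.Agent.Lib.CovBas2

set_option autoImplicit false

namespace Cfsg.Agent.Lib.CovDefs

open Module Polynomial Cfsg.Agent.Lib.CyclicProd

universe u

variable {F : Type u} [Field F] {V : Type u} [AddCommGroup V] [Module F V]

/-! ### rootless polynomials -/

theorem rootless_tri [Fintype F] {e : ℕ} (he : 2 ≤ e) {b : F} (hb : b ≠ 0) :
    ∃ u : F, ∀ x : F, (X ^ e + C u * X + C b : F[X]).eval x ≠ 0 := by
  classical
  have hns : ¬ Function.Surjective (fun x : Fˣ => -(((x : F) ^ e + b) / (x : F))) := by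
    intro h
    have h1 := Fintype.card_le_of_surjective _ h
    rw [Fintype.card_units] at h1
    have h2 : 0 < Fintype.card F := Fintype.card_pos
    omega
  simp only [Function.Surjective, not_forall, not_exists] at hns
  obtain ⟨u, hu⟩ := hns
  refine ⟨u, fun x hx => ?_⟩
  simp only [eval_add, eval_mul, eval_pow, eval_X, eval_C] at hx
  by_cases hx0 : x = 0
  · subst hx0
    rw [zero_pow (by omega)] at hx
    apply hb
    linear_combination hx
  · apply hu (Units.mk0 x hx0)
    simp only [Units.val_mk0]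
    field_simp
    linear_combination -hx

theorem tri_monic {e : ℕ} (he : 2 ≤ e) (u b : F) : (X ^ e + C u * X + C b : F[X]).Monic := by
  rw [add_assoc]
  apply monic_X_pow_add
  refine (degree_add_le _ _).trans_lt (max_lt ?_ ?_)
  · refine (degree_C_mul_X_le u).trans_lt ?_
    exact_mod_cast (by omega : 1 < e)
  · refine degree_C_le.trans_lt ?_
    exact_mod_cast (by omega : 0 < e)

theorem tri_natDegree {e : ℕ} (he : 2 ≤ e) (u b : F) :
    (X ^ e + C u * X + C b : F[X]).natDegree = e := by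
  rw [natDegree_add_C, natDegree_add_eq_left_of_natDegree_lt, natDegree_X_pow]
  rw [natDegree_X_pow]
  have h1 : (C u * X : F[X]).natDegree ≤ 1 := by
    refine natDegree_le_of_degree_le ?_
    exact degree_C_mul_X_le u
  omega

theorem tri_coeff {e : ℕ} (he : 2 ≤ e) (u b : F) :
    (X ^ e + C u * X + C b : F[X]).coeff 0 = b := by
  rw [coeff_zero_eq_eval_zero]
  simp [zero_pow (by omega : e ≠ 0)]

theorem rootless [Fintype F] {e : ℕ} (he : 2 ≤ e) {b : F} (hb : b ≠ 0) :
    ∃ h : F[X], h.Monic ∧ h.natDegree = e ∧ h.coeff 0 = b ∧ ∀ x : F, h.eval x ≠ 0 := by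
  obtain ⟨u, hu⟩ := rootless_tri he hb
  exact ⟨_, tri_monic he u b, tri_natDegree he u b, tri_coeff he u b, hu⟩

section FD

variable [FiniteDimensional F V]

theorem Cyc.coeff_ne_zero {A : V ≃ₗ[F] V} {p : F[X]} (h : Cyc A p) : p.coeff 0 ≠ 0 := by
  intro h0
  have := h.det
  rw [h0, mul_zero] at this
  exact (LinearEquiv.det A).ne_zero this

theorem Full.of_aeval {A : V ≃ₗ[F] V}
    (h : ∀ γ : Fˣ, ∃ g : F[X], LinearMap.det (aeval A.toLinearMap g) = γ) : Full A := by
  intro γ
  obtain ⟨g, hg⟩ := h γ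
  have hu : IsUnit (LinearMap.det (aeval A.toLinearMap g)) := by rw [hg]; exact γ.isUnit
  let e : V ≃ₗ[F] V := LinearEquiv.ofIsUnitDet (v := Module.finBasis F V) (v' := Module.finBasis F V)
    (f := aeval A.toLinearMap g) (by rw [LinearMap.det_toMatrix]; exact hu)
  have he : e.toLinearMap = aeval A.toLinearMap g := rfl
  refine ⟨e, ?_, ?_⟩
  · apply Units.ext
    rw [LinearEquiv.coe_det, he, hg]
  · have hc : aeval A.toLinearMap g * A.toLinearMap = A.toLinearMap * aeval A.toLinearMap g := by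
      have := congrArg (aeval A.toLinearMap) (mul_comm g X)
      rwa [map_mul, map_mul, aeval_X] at this
    ext x
    exact congrArg (fun f : V →ₗ[F] V => f x) hc

theorem Full.of_sr {A : V ≃ₗ[F] V} {p : F[X]} (h : Cyc A p) (hp : SR p) : Full A := by
  obtain ⟨c, p', rfl, hc⟩ := hp
  obtain ⟨hm, hd, ⟨v, hv⟩, h0⟩ := h
  apply Full.of_aeval
  intro δ
  set T := A.toLinearMap with hT
  set P := aeval T p' with hP
  have hp0 : p' ≠ 0 := by rintro rfl; simp at hc
  have hn : p'.natDegree < finrank F V := by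
    rw [← hd, natDegree_mul hp0 (X_sub_C_ne_zero c), natDegree_X_sub_C]
    omega
  set u := P v with hu
  have hu0 : u ≠ 0 := by
    intro h
    apply hp0
    apply hv.eq_zero_of_aeval _ h
    rw [Polynomial.degree_eq_natDegree hp0]
    exact_mod_cast hn
  have hTP : ∀ w, T (P w) = c • P w := by
    intro w
    have h1 : (aeval T (p' * (X - C c))) w = 0 := by rw [h0]; rfl
    rw [mul_comm, map_mul, Module.End.mul_apply] at h1
    rw [← hP] at h1
    simpa [sub_eq_zero, Algebra.algebraMap_eq_smul_one] using h1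
  have hPT : ∀ w, P (T w) = T (P w) := by
    intro w
    have := congrArg (fun f => (aeval T f) w) (mul_comm p' X)
    simpa [map_mul] using this
  have hspan : ∀ w, P w ∈ Submodule.span F {u} := by
    intro w
    have : (Submodule.span F {u}).comap P = ⊤ := by
      apply hv
      · exact Submodule.mem_span_singleton_self u
      · intro w hw
        rw [Submodule.mem_comap] at hw ⊢
        rw [hPT, hTP]
        exact Submodule.smul_mem _ _ hw
    have h2 : w ∈ (Submodule.span F {u}).comap P := by rw [this]; trivial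
    exact h2
  have hPu : P u = p'.eval c • u := by
    have hk : ∀ k : ℕ, (T ^ k) u = c ^ k • u := by
      intro k
      induction k with
      | zero => simp
      | succ k ih => rw [pow_succ', Module.End.mul_apply, ih, map_smul, hu, hTP, ← hu, smul_smul,
          pow_succ]
    rw [hP, Polynomial.aeval_eq_sum_range, LinearMap.sum_apply, Polynomial.eval_eq_sum_range,
      Finset.sum_smul]
    exact Finset.sum_congr rfl fun k _ => by
      rw [LinearMap.smul_apply, hk, smul_smul]
  obtain ⟨ψ, hψ, _⟩ := exists_dual_ne_ne (F := F) hu0 hu0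
  have hPw : ∀ w, P w = ((ψ u)⁻¹ * ψ (P w)) • u := by
    intro w
    obtain ⟨a, ha⟩ := Submodule.mem_span_singleton.1 (hspan w)
    rw [← ha, map_smul, smul_eq_mul]
    congr 1
    field_simp
  let ε : Module.Dual F V := ((((δ : F) - 1) / p'.eval c) * (ψ u)⁻¹) • (ψ ∘ₗ P)
  let Q₀ : V →ₗ[F] V := LinearMap.transvection ε u
  have hQ₀ : ∀ w, Q₀ w = w + (((δ : F) - 1) / p'.eval c) • P w := by
    intro w
    rw [hPw w]
    simp only [Q₀, LinearMap.transvection.apply, ε, LinearMap.smul_apply, LinearMap.comp_apply,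
      smul_eq_mul, smul_smul, mul_assoc]
  have hdet : LinearMap.det Q₀ = δ := by
    rw [LinearMap.transvection.det]
    simp only [ε, LinearMap.smul_apply, LinearMap.comp_apply, hPu, map_smul, smul_eq_mul]
    field_simp
    ring
  refine ⟨1 + C (((δ : F) - 1) / p'.eval c) * p', ?_⟩
  have e1 : aeval T (1 + C (((δ : F) - 1) / p'.eval c) * p') = Q₀ := by
    ext w
    rw [hQ₀, map_add, map_one, map_mul, aeval_C, LinearMap.add_apply, Module.End.mul_apply,
      ← hP]
    rfl
  rw [e1, hdet]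

/-- Existence of a cyclic operator with a given characteristic polynomial. -/
theorem Cyc.exists (n : ℕ) (hn : finrank F V = n) {p : F[X]} (hp : p.Monic) (hd : p.natDegree = n)
    (h0 : p.coeff 0 ≠ 0) : ∃ A : V ≃ₗ[F] V, Cyc A p := by
  have hfd : FiniteDimensional F (AdjoinRoot p) := (AdjoinRoot.powerBasis' hp).finite
  have hfin : finrank F (AdjoinRoot p) = n := by
    rw [PowerBasis.finrank (AdjoinRoot.powerBasis' hp), AdjoinRoot.powerBasis'_dim, hd]
  let e : AdjoinRoot p ≃ₗ[F] V := LinearEquiv.ofFinrankEq _ _ (hfin.trans hn.symm)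
  let T := LinearMap.mulLeft F (AdjoinRoot.root p)
  let S : V →ₗ[F] V := e.toLinearMap ∘ₗ T ∘ₗ e.symm.toLinearMap
  have hcomm : ∀ x, e (T x) = S (e x) := fun x => by simp [S]
  have hc : CycVec S (e 1) := CyclicComm.cycVec_conj e hcomm (CyclicComm.cycVec_adjoinRoot p)
  have ha : aeval S p = 0 := by
    ext x
    have h1 := CyclicComm.aeval_conj e hcomm p (e.symm x)
    rw [CyclicComm.aeval_self_adjoinRoot, LinearMap.zero_apply, map_zero,
      LinearEquiv.apply_symm_apply] at h1
    rw [← h1]; rfl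
  have hdet : LinearMap.det S ≠ 0 := by
    rw [hc.det_eq hp (by rw [hd, hn]) ha]
    exact mul_ne_zero (pow_ne_zero _ (neg_ne_zero.2 one_ne_zero)) h0
  let A : V ≃ₗ[F] V := LinearEquiv.ofIsUnitDet (v := Module.finBasis F V)
    (v' := Module.finBasis F V) (f := S) (by rw [LinearMap.det_toMatrix]; exact hdet.isUnit)
  exact ⟨A, hp, by rw [hd, hn], ⟨e 1, hc⟩, ha⟩

theorem Full.of_irr [Finite F] {A : V ≃ₗ[F] V} {f₁ f₂ : F[X]} (h : Cyc A (f₁ * f₂))
    (h1m : f₁.Monic) (h2m : f₂.Monic) (h1 : Irreducible f₁) (hco : IsCoprime f₁ f₂) : Full A := by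
  obtain ⟨hm, hd, ⟨v, hv⟩, h0⟩ := h
  exact Full.of_aeval fun γ => CyclicComm.exists_det_aeval hv h1m h2m h1 hco hd h0 γ

omit [FiniteDimensional F V] in
theorem symm_pow_apply_pow (A : V ≃ₗ[F] V) (k : ℕ) (x : V) :
    (A⁻¹.toLinearMap ^ k) ((A.toLinearMap ^ k) x) = x := by
  induction k generalizing x with
  | zero => simp
  | succ k ih =>
    rw [pow_succ (A⁻¹.toLinearMap), pow_succ' A.toLinearMap, Module.End.mul_apply,
      Module.End.mul_apply]
    have : A⁻¹.toLinearMap (A.toLinearMap ((A.toLinearMap ^ k) x)) = (A.toLinearMap ^ k) x :=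
      A.symm_apply_apply _
    rw [this, ih]

omit [FiniteDimensional F V] in
theorem aeval_inv_reverse (A : V ≃ₗ[F] V) (p : F[X]) (x : V) :
    (aeval A⁻¹.toLinearMap p.reverse) ((A.toLinearMap ^ p.natDegree) x) =
      (aeval A.toLinearMap p) x := by
  have h1 : p.reverse.natDegree < p.natDegree + 1 := by
    have := reverse_natDegree_le p
    omega
  rw [Polynomial.aeval_eq_sum_range' h1, Polynomial.aeval_eq_sum_range, LinearMap.sum_apply,
    LinearMap.sum_apply, ← Finset.sum_range_reflect]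
  refine Finset.sum_congr rfl fun i hi => ?_
  have hi' : i ≤ p.natDegree := by
    have := Finset.mem_range.1 hi
    omega
  have e1 : p.natDegree + 1 - 1 - i = p.natDegree - i := by omega
  rw [e1, coeff_reverse, revAt_le (by omega), Nat.sub_sub_self hi', LinearMap.smul_apply,
    LinearMap.smul_apply]
  congr 1
  have e2 : A.toLinearMap ^ p.natDegree = A.toLinearMap ^ (p.natDegree - i) * A.toLinearMap ^ i := by
    rw [← pow_add]
    congr 1
    omega
  rw [e2, Module.End.mul_apply, symm_pow_apply_pow]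

theorem Cyc.inv' {A : V ≃ₗ[F] V} {p : F[X]} (h : Cyc A p) :
    Cyc A⁻¹ (C (p.coeff 0)⁻¹ * p.reverse) := by
  have hc := h.coeff_ne_zero
  obtain ⟨hm, hd, ⟨v, hv⟩, h0⟩ := h
  have hr : p.reverse.natDegree = p.natDegree := by
    rw [reverse_natDegree, natTrailingDegree_eq_zero.2 (Or.inr hc), Nat.sub_zero]
  have hl : p.reverse.leadingCoeff = p.coeff 0 := by
    rw [reverse_leadingCoeff, trailingCoeff, natTrailingDegree_eq_zero.2 (Or.inr hc)]
  refine ⟨?_, ?_, ⟨v, ?_⟩, ?_⟩
  · rw [Monic, leadingCoeff_mul, leadingCoeff_C, hl, inv_mul_cancel₀ hc]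
  · rw [natDegree_C_mul (inv_ne_zero hc), hr, hd]
  · intro W hW1 hW2
    apply hv W hW1
    -- `A⁻¹ W ≤ W` implies equality
    have h1 : W.map A⁻¹.toLinearMap ≤ W := by
      rintro _ ⟨w, hw, rfl⟩
      exact hW2 w hw
    have h2 : W.map A⁻¹.toLinearMap = W :=
      Submodule.eq_of_le_of_finrank_eq h1 (LinearEquiv.finrank_map_eq A⁻¹ W)
    intro w hw
    rw [← h2] at hw
    obtain ⟨y, hy, rfl⟩ := hw
    have : A.toLinearMap (A⁻¹.toLinearMap y) = y := A.apply_symm_apply y
    rw [this]
    exact hy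
  · rw [map_mul, aeval_C]
    have h2 : aeval A⁻¹.toLinearMap p.reverse = 0 := by
      ext x
      have h3 := aeval_inv_reverse A p ((A⁻¹.toLinearMap ^ p.natDegree) x)
      have h4 : (A.toLinearMap ^ p.natDegree) ((A⁻¹.toLinearMap ^ p.natDegree) x) = x := by
        have := symm_pow_apply_pow A⁻¹ p.natDegree x
        rwa [inv_inv] at this
      rw [h4, h0, LinearMap.zero_apply] at h3
      rw [h3, LinearMap.zero_apply]
    rw [h2, mul_zero]

theorem reverse_X_sub_C {c : F} (hc : c ≠ 0) :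
    (X - C c : F[X]).reverse = C (-c) * (X - C c⁻¹) := by
  have h1 : (X - C c : F[X]).natDegree = 1 := natDegree_X_sub_C c
  ext k
  rw [coeff_reverse, h1]
  rcases k with _ | _ | k
  · rw [revAt_le (by omega)]
    simp [hc]
  · rw [revAt_le (by omega)]
    simp
  · have h2 : revAt 1 (k + 1 + 1) = k + 1 + 1 := revAt_eq_self_of_lt (by omega)
    rw [h2]
    have h3 : (X - C c : F[X]).coeff (k + 1 + 1) = 0 :=
      coeff_eq_zero_of_natDegree_lt (by rw [h1]; omega)
    rw [h3, coeff_C_mul]
    have h4 : (X - C c⁻¹ : F[X]).coeff (k + 1 + 1) = 0 :=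
      coeff_eq_zero_of_natDegree_lt (by rw [natDegree_X_sub_C]; omega)
    rw [h4, mul_zero]

theorem SR.reverse {p : F[X]} (h : SR p) (h0 : p.coeff 0 ≠ 0) :
    SR (C (p.coeff 0)⁻¹ * p.reverse) := by
  obtain ⟨c, p', rfl, hc⟩ := h
  have hc0 : c ≠ 0 := by
    rintro rfl
    apply h0
    simp
  refine ⟨c⁻¹, C ((p' * (X - C c)).coeff 0)⁻¹ * (C (-c) * p'.reverse), ?_, ?_⟩
  · rw [reverse_mul_of_domain, reverse_X_sub_C hc0]
    ring
  · rw [eval_mul, eval_C, eval_mul, eval_C]
    refine mul_ne_zero (inv_ne_zero h0) (mul_ne_zero (neg_ne_zero.2 hc0) ?_)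
    intro h1
    apply hc
    let _ : Invertible c := invertibleOfNonzero hc0
    have h2 := eval₂_reverse_mul_pow (RingHom.id F) c p'
    rw [invOf_eq_inv] at h2
    change (p'.reverse).eval c⁻¹ * _ = p'.eval c at h2
    rw [← h2, h1, zero_mul]

theorem Cyc.inv {A : V ≃ₗ[F] V} {p : F[X]} (h : Cyc A p) :
    ∃ q, Cyc A⁻¹ q ∧ (SR p → SR q) :=
  ⟨_, h.inv', fun hp => hp.reverse h.coeff_ne_zero⟩

end FD

end Cfsg.Agent.Lib.CovDefs
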