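import Mathlib
import Cfsg.Agent.Lib.CovDefs
import Cfsg.Agent.Lib.CyclicComm
import Cfsg.Agent.Lib.CovBas
import Cfsg.Agent.Lib.CovBas2
import Cfsg.Agent.Lib.CovBas3

set_option autoImplicit false
set_option maxHeartbeats 400000

namespace Cfsg.Agent.Lib.CovSTAR

open Module Polynomial Cfsg.Agent.Lib.CyclicProd Cfsg.Agent.Lib.CovDefs

universe u

variable {F : Type u} [Field F] {V : Type u} [AddCommGroup V] [Module F V]
  [FiniteDimensional F V]

omit [FiniteDimensional F V] in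
theorem ns_inv {A : V ≃ₗ[F] V} (h : NS A) : NS A⁻¹ := by
  obtain ⟨u, hu⟩ := h
  refine ⟨A u, fun c hc => ?_⟩
  have h1 : A⁻¹ (A u) = u := by
    change A.symm (A u) = u
    exact A.symm_apply_apply u
  rw [h1] at hc
  by_cases h0 : c = 0
  · rw [h0, zero_smul] at hc
    exact hu 0 (by rw [hc]; simp)
  · apply hu c⁻¹
    calc A u = c⁻¹ • (c • A u) := by rw [smul_smul, inv_mul_cancel₀ h0, one_smul]
      _ = c⁻¹ • u := congrArg (c⁻¹ • ·) hc.symm

/-- products (weak) of cyclic by non-scalar, from `CyclicProd.main`. -/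
theorem star_weak (h2 : 2 ≤ finrank F V) {B Z₀ : V ≃ₗ[F] V} (hB : NS B) {p q : F[X]}
    {Y₀ : V ≃ₗ[F] V} (hY : Cyc Y₀ p) (hp : SR p) (hZ : Cyc Z₀ q)
    (hdet : LinearEquiv.det Z₀ = LinearEquiv.det B * LinearEquiv.det Y₀) :
    ∃ g h : V ≃ₗ[F] V, (g * Y₀ * g⁻¹) * B = h * Z₀ * h⁻¹ := by
  obtain ⟨m, hm⟩ : ∃ m, finrank F V = m + 1 := ⟨finrank F V - 1, by omega⟩
  obtain ⟨u, hu⟩ := hB
  obtain ⟨hpm, hpd, ⟨v, hv⟩, hp0⟩ := hY
  obtain ⟨hqm, hqd, ⟨w, hw⟩, hq0⟩ := hZ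
  have hYdet := hv.det_eq hpm hpd hp0
  have hZdet := hw.det_eq hqm hqd hq0
  obtain ⟨c, p', hpp, hc⟩ := hp
  have hp'm : p'.Monic := by
    have h1 : (p' * (X - C c)).Monic := hpp ▸ hpm
    exact (monic_X_sub_C c).of_mul_monic_right h1
  have hp'd : p'.natDegree = m := by
    have h1 : p.natDegree = p'.natDegree + 1 := by
      rw [hpp, hp'm.natDegree_mul (monic_X_sub_C c), natDegree_X_sub_C]
    omega
  have hYne : LinearMap.det Y₀.toLinearMap ≠ 0 := (LinearEquiv.isUnit_det' Y₀).ne_zero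
  have hcoef : p.coeff 0 = p'.coeff 0 * (- c) := by
    rw [hpp, Polynomial.mul_coeff_zero]; simp
  have hpc : p.coeff 0 ≠ 0 := by
    intro h; rw [h, mul_zero] at hYdet; exact hYne hYdet
  have hp'0 : p'.coeff 0 ≠ 0 := by intro h; rw [hcoef, h, zero_mul] at hpc; exact hpc rfl
  have hc0 : c ≠ 0 := by rintro rfl; rw [hcoef] at hpc; simp at hpc
  have hdet' : LinearMap.det Z₀.toLinearMap = LinearMap.det B.toLinearMap * LinearMap.det Y₀.toLinearMap := by
    have := congrArg (Units.val) hdet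
    simpa using this
  obtain ⟨Y, ⟨v₁, hv₁⟩, hY1, ⟨v₂, hv₂⟩, hY2⟩ := CyclicProd.main hm (by omega) B hu hp'm hp'd hp'0
    hc0 hc hqm (hqd.trans hm) (by
      rw [← hm, ← hZdet, hdet', hYdet, hcoef, hm, pow_succ]; ring)
  rw [← hpp] at hY1
  obtain ⟨g, hg⟩ := similar_of_cycVec hv hv₁ hpm hpd hpd hp0 hY1
  obtain ⟨h, hh⟩ := similar_of_cycVec hw hv₂ hqm hqd hqd hq0 hY2
  refine ⟨g, h, LinearEquiv.ext fun x => ?_⟩
  have e1 : (g * Y₀ * g⁻¹) (B x) = Y (B x) := by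
    change g (Y₀ (g.symm (B x))) = _
    have := hg (g.symm (B x))
    rw [g.apply_symm_apply] at this
    exact this
  have e2 : (h * Z₀ * h⁻¹) x = Y (B x) := by
    change h (Z₀ (h.symm x)) = _
    have := hh (h.symm x)
    rw [h.apply_symm_apply] at this
    exact this
  change (g * Y₀ * g⁻¹) (B x) = _
  rw [e1, e2]

/-- weak step -/
theorem starW {A E M : V ≃ₗ[F] V} {k : ℕ} (h2 : 2 ≤ finrank F V) (hA : NS A) {p q : F[X]}
    (hE : Cyc E p) (hSE : WP A k E) (hM : Cyc M q) (hq : SR q)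
    (hdet : LinearEquiv.det M = LinearEquiv.det A ^ (k + 1)) : WP A (k + 1) M := by
  have hEd := hSE.det
  obtain ⟨g, h, hgh⟩ := star_weak h2 (ns_inv hA) hM hq hE (by
    rw [hEd, hdet, map_inv, pow_succ']; group)
  have hMe : M = ((g⁻¹ * h) * E * (g⁻¹ * h)⁻¹) * (g⁻¹ * A * (g⁻¹)⁻¹) := by
    have : g * M * g⁻¹ = h * E * h⁻¹ * A := by rw [← hgh]; group
    have h3 : M = g⁻¹ * (g * M * g⁻¹) * g := by group
    rw [h3, this]; group
  rw [hMe]
  exact (hSE.conj _).mul ((WP.one A).conj _)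

/-- all non-scalars from a good element and a cyclic element: the factorisation -/
theorem star2_aux {A D E M : V ≃ₗ[F] V} {k l : ℕ} (h2 : 2 ≤ finrank F V) {p q : F[X]}
    (hD : Cyc D p) (hp : SR p) (hSD : WP A k D) (hE : Cyc E q) (hSE : WP A l E) (hM : NS M)
    (hdet : LinearEquiv.det M = LinearEquiv.det A ^ (k + l)) :
    ∃ g h : V ≃ₗ[F] V, M = (g * D * g⁻¹) * (h * E * h⁻¹) := by
  obtain ⟨p₁, hp₁, hp₁s⟩ := hD.inv
  obtain ⟨g, h, hgh⟩ := star_weak h2 hM hp₁ (hp₁s hp) hE (by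
    rw [hSE.det, hdet, map_inv, hSD.det, pow_add, mul_comm (LinearEquiv.det A ^ k), mul_assoc,
      mul_inv_cancel, mul_one])
  refine ⟨g, h, ?_⟩
  rw [← hgh]; group

theorem star2W {A D E M : V ≃ₗ[F] V} {k l : ℕ} (h2 : 2 ≤ finrank F V) {p q : F[X]}
    (hD : Cyc D p) (hp : SR p) (hSD : WP A k D) (hE : Cyc E q) (hSE : WP A l E) (hM : NS M)
    (hdet : LinearEquiv.det M = LinearEquiv.det A ^ (k + l)) : WP A (k + l) M := by
  obtain ⟨g, h, hgh⟩ := star2_aux h2 hD hp hSD hE hSE hM hdet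
  rw [hgh]
  exact (hSD.conj _).mul (hSE.conj _)

theorem star2 {A D E M : V ≃ₗ[F] V} {k l : ℕ} (h2 : 2 ≤ finrank F V) {p q : F[X]}
    (hD : Cyc D p) (hp : SR p) (hSD : SP A k D) (hE : Cyc E q) (hSE : SP A l E) (hM : NS M)
    (hdet : LinearEquiv.det M = LinearEquiv.det A ^ (k + l)) : SP A (k + l) M := by
  obtain ⟨g, h, hgh⟩ := star2_aux h2 hD hp hSD.wp hE hSE.wp hM hdet
  rw [hgh]
  exact (hSD.conj _).mul (hSE.conj _)

omit [FiniteDimensional F V] in
theorem ip_append {A : V ≃ₗ[F] V} : ∀ (cs ds : List Fˣ) (M M' : V ≃ₗ[F] V), IP A cs M → IP A ds M' →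
    IP A (cs ++ ds) (M * M')
  | [], ds, M, M', h, h' => by
    have h1 : M = 1 := h
    rw [h1, one_mul]; exact h'
  | c :: cs, ds, M, M', h, h' => by
    obtain ⟨g, P, hg, hP, hM⟩ := h
    refine ⟨g, P * M', hg, ip_append cs ds P M' hP h', ?_⟩
    rw [hM, mul_assoc]

/-- strong step -/
theorem star {A E M : V ≃ₗ[F] V} {k : ℕ} (h2 : 2 ≤ finrank F V) (hA : NS A) {p q : F[X]}
    (hE : Cyc E p) (hSE : SP A k E) (hM : Cyc M q) (hq : SR q)
    (hdet : LinearEquiv.det M = LinearEquiv.det A ^ (k + 1)) : SP A (k + 1) M := by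
  have hEd := hSE.wp.det
  obtain ⟨g, h, hgh⟩ := star_weak h2 (ns_inv hA) hM hq hE (by
    rw [hEd, hdet, map_inv, pow_succ']; group)
  intro cs hcs
  obtain ⟨cs', c, rfl⟩ : ∃ cs' c, cs = cs' ++ [c] := by
    rcases List.eq_nil_or_concat cs with h | ⟨l, c, h⟩
    · rw [h] at hcs; simp at hcs
    · exact ⟨l, c, by simpa using h⟩
  have hcs' : cs'.length = k := by simpa using hcs
  obtain ⟨z, hz, hzM⟩ := Full.of_sr hM hq (c * LinearEquiv.det g)
  have hMe : M = ((z * g⁻¹ * h) * E * (z * g⁻¹ * h)⁻¹) * ((z * g⁻¹) * A * (z * g⁻¹)⁻¹) := by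
    have h1 : g * M * g⁻¹ = h * E * h⁻¹ * A := by rw [← hgh]; group
    have h4 : M = z * M * z⁻¹ := by rw [hzM]; group
    have h3 : M = g⁻¹ * (g * M * g⁻¹) * g := by group
    rw [h1] at h3
    rw [h4]
    conv_lhs => rw [h3]
    group
  rw [hMe]
  refine ip_append cs' [c] _ _ ((hSE.conj _) cs' hcs') ⟨z * g⁻¹, 1, ?_, rfl, by rw [mul_one]⟩
  rw [map_mul, hz, map_inv, mul_inv_cancel_right]

theorem cyc_of_ns (h2 : finrank F V = 2) {X : V ≃ₗ[F] V} (hX : NS X) : ∃ p : F[X], Cyc X p := by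
  obtain ⟨u, hu⟩ := hX
  refine ⟨X.toLinearMap.charpoly, LinearMap.charpoly_monic _, LinearMap.charpoly_natDegree _, ⟨u, ?_⟩,
    LinearMap.aeval_self_charpoly _⟩
  rw [cycVec_iff_linearIndependent _ u 2 h2]
  have e : (fun i : Fin 2 => (X.toLinearMap ^ (i : ℕ)) u) = ![u, X u] := by
    funext i
    fin_cases i <;> simp
  rw [e]
  have hu0 : u ≠ 0 := by rintro rfl; exact hu 0 (by simp)
  rw [LinearIndependent.pair_iff' hu0]
  intro a ha
  exact hu a ha.symm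

/-- a product of `E` with some conjugate of `A` is non-scalar -/
theorem exists_ns {A : V ≃ₗ[F] V} (E : V ≃ₗ[F] V) (hA : NS A) :
    ∃ g : V ≃ₗ[F] V, NS (E * (g * A * g⁻¹)) := by
  by_contra hcon
  push Not at hcon
  obtain ⟨u, hu⟩ := hA
  have hsc : ∀ g : V ≃ₗ[F] V, ∃ c : F, E (g (A (g⁻¹ u))) = c • u := by
    intro g
    have := hcon g
    unfold NS at this
    push Not at this
    exact this u
  have hu0 : u ≠ 0 := by rintro rfl; exact hu 0 (by simp)
  have hnot : A u ∉ Submodule.span F {u} := by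
    intro h
    obtain ⟨c, hc⟩ := Submodule.mem_span_singleton.1 h
    exact hu c hc.symm
  obtain ⟨f, hf1, hf2⟩ := Submodule.exists_le_ker_of_notMem hnot
  have hfu : f u = 0 := by
    have : u ∈ LinearMap.ker f := hf2 (Submodule.mem_span_singleton_self u)
    exact this
  obtain ⟨c₁, hc₁⟩ := hsc 1
  have h1 : E (A u) = c₁ • u := hc₁
  obtain ⟨c₂, hc₂⟩ := hsc (LinearEquiv.transvection hfu)
  have ht : ∀ x, (LinearEquiv.transvection hfu : V ≃ₗ[F] V) x = x + f x • u := fun x =>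
    LinearEquiv.transvection.apply hfu x
  have hti : ((LinearEquiv.transvection hfu : V ≃ₗ[F] V)⁻¹ : V ≃ₗ[F] V) u = u := by
    change (LinearEquiv.transvection hfu : V ≃ₗ[F] V).symm u = u
    rw [LinearEquiv.symm_apply_eq, ht, hfu, zero_smul, add_zero]
  rw [hti, ht, map_add, h1, map_smul] at hc₂
  -- c₁ • u + f (A u) • E u = c₂ • u
  have h3 : E u = ((f (A u))⁻¹ * (c₂ - c₁)) • u := by
    rw [mul_smul, sub_smul, ← hc₂, add_sub_cancel_left, smul_smul, inv_mul_cancel₀ hf1, one_smul]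
  set r := (f (A u))⁻¹ * (c₂ - c₁) with hr
  have hr0 : r ≠ 0 := by
    intro h
    rw [h, zero_smul] at h3
    exact hu0 (E.map_eq_zero_iff.1 h3)
  apply hu (c₁ * r⁻¹)
  apply E.injective
  rw [h1, map_smul, h3, smul_smul, mul_assoc, inv_mul_cancel₀ hr0, mul_one]

theorem exists_good3 {n : ℕ} (hn : 3 ≤ n) {δ : F} (hδ : δ ≠ 0) :
    ∃ q : F[X], q.Monic ∧ q.natDegree = n ∧ q.coeff 0 = δ ∧ SR q := by
  -- (X - 1) (X^(n-1) + δ X - δ)
  obtain ⟨m, rfl⟩ : ∃ m, n = m + 3 := ⟨n - 3, by omega⟩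
  set h : F[X] := X ^ (m + 2) + (C δ * X - C δ) with hh
  have hdeg : (C δ * X - C δ : F[X]).degree < (m + 2 : ℕ) := by
    refine lt_of_le_of_lt (degree_sub_le _ _) (max_lt ?_ ?_)
    · exact lt_of_le_of_lt (degree_C_mul_X_le δ) (by exact_mod_cast (by omega : 1 < m + 2))
    · exact lt_of_le_of_lt degree_C_le (by exact_mod_cast (by omega : 0 < m + 2))
  have hm : h.Monic := monic_X_pow_add hdeg
  have hd : h.natDegree = m + 2 := by
    rw [hh, natDegree_add_eq_left_of_degree_lt (by rw [degree_X_pow]; exact hdeg), natDegree_X_pow]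
  refine ⟨h * (X - C 1), hm.mul (monic_X_sub_C 1), ?_, ?_, 1, h, rfl, ?_⟩
  · rw [hm.natDegree_mul (monic_X_sub_C 1), hd, natDegree_X_sub_C]
  · rw [Polynomial.mul_coeff_zero, hh]; simp
  · rw [hh]; simp

theorem exists_good2 [Fintype F] (h4 : 4 ≤ Fintype.card F) {δ : F} (hδ : δ ≠ 0) :
    ∃ q : F[X], q.Monic ∧ q.natDegree = 2 ∧ q.coeff 0 = δ ∧ SR q := by
  classical
  obtain ⟨c, hc0, hc⟩ : ∃ c : F, c ≠ 0 ∧ c * c ≠ δ := by
    by_contra hcon
    push Not at hcon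
    have h1 : (Finset.univ : Finset F) ⊆ insert 0 (Polynomial.nthRoots 2 δ).toFinset := by
      intro x _
      by_cases hx : x = 0
      · simp [hx]
      · rw [Finset.mem_insert, Multiset.mem_toFinset, Polynomial.mem_nthRoots (by norm_num)]
        right
        rw [sq]; exact hcon x hx
    have h2 := Finset.card_le_card h1
    have h3 := Finset.card_insert_le (0 : F) (Polynomial.nthRoots 2 δ).toFinset
    have h5 := Multiset.toFinset_card_le (Polynomial.nthRoots 2 δ)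
    have h6 := Polynomial.card_nthRoots 2 δ
    rw [Finset.card_univ] at h2
    omega
  refine ⟨(X - C (δ / c)) * (X - C c), (monic_X_sub_C _).mul (monic_X_sub_C _), ?_, ?_, c, _, rfl, ?_⟩
  · rw [(monic_X_sub_C _).natDegree_mul (monic_X_sub_C _), natDegree_X_sub_C, natDegree_X_sub_C]
  · rw [Polynomial.mul_coeff_zero]; simp [div_mul_cancel₀ _ hc0]
  · rw [eval_sub, eval_X, eval_C, sub_ne_zero]
    intro h
    apply hc
    calc c * c = (δ / c) * c := by rw [← h]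
      _ = δ := div_mul_cancel₀ _ hc0

/-- all powers of a cyclic class contain a cyclic element -/
theorem exists_cyc (h2 : 2 ≤ finrank F V) {A : V ≃ₗ[F] V} {p : F[X]} (hA : Cyc A p) (hNS : NS A)
    (k : ℕ) : ∃ (E : V ≃ₗ[F] V) (q : F[X]), Cyc E q ∧ WP A (k + 1) E := by
  induction k with
  | zero => exact ⟨A, p, hA, WP.one A⟩
  | succ k ih =>
    obtain ⟨E, q, hE, hW⟩ := ih
    rcases Nat.lt_or_ge (finrank F V) 3 with h3 | h3
    · have h2' : finrank F V = 2 := by omega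
      obtain ⟨g, hg⟩ := exists_ns E hNS
      obtain ⟨q', hq'⟩ := cyc_of_ns h2' hg
      exact ⟨_, q', hq', hW.mul ((WP.one A).conj g)⟩
    · have hδ : ((-1) ^ finrank F V * ((LinearEquiv.det A ^ (k + 1 + 1) : Fˣ) : F)) ≠ 0 :=
        mul_ne_zero (pow_ne_zero _ (neg_ne_zero.2 one_ne_zero)) (Units.ne_zero _)
      obtain ⟨q', hm, hd, h0, hsr⟩ := exists_good3 h3 hδ
      obtain ⟨M, hM⟩ := Cyc.exists (V := V) _ rfl hm hd (by rw [h0]; exact hδ)
      refine ⟨M, q', hM, starW h2 hNS hE hW hM hsr ?_⟩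
      apply Units.ext
      rw [hM.det, h0, ← mul_assoc, ← pow_add, ← two_mul, pow_mul]
      simp

theorem Cyc.ns' {A : V ≃ₗ[F] V} {p : F[X]} (h : Cyc A p) (h2 : 2 ≤ finrank F V) : NS A := by
  obtain ⟨-, -, ⟨v, hv⟩, -⟩ := h
  refine ⟨v, fun c hc => ?_⟩
  have h1 := hv (Submodule.span F {v}) (Submodule.mem_span_singleton_self v) (by
    intro w hw
    obtain ⟨a, rfl⟩ := Submodule.mem_span_singleton.1 hw
    rw [map_smul]
    have : A.toLinearMap v = c • v := hc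
    rw [this]
    exact Submodule.smul_mem _ _ (Submodule.smul_mem _ _ (Submodule.mem_span_singleton_self v)))
  have h3 : finrank F (Submodule.span F {v}) ≤ 1 := by
    have := finrank_span_le_card (R := F) ({v} : Set V)
    simpa using this
  rw [h1, finrank_top] at h3
  omega

/-- cyclic `A`, dim ≥ 2: weak, `k ≥ 2`, good targets. -/
theorem cycW {A M : V ≃ₗ[F] V} {k : ℕ} (h2 : 2 ≤ finrank F V) {p q : F[X]} (hk : 2 ≤ k)
    (hA : Cyc A p) (hM : Cyc M q) (hq : SR q)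
    (hdet : LinearEquiv.det M = LinearEquiv.det A ^ k) : WP A k M := by
  obtain ⟨j, rfl⟩ : ∃ j, k = j + 1 + 1 := ⟨k - 2, by omega⟩
  have hns := Cyc.ns' hA h2
  obtain ⟨E, r, hE, hW⟩ := exists_cyc h2 hA hns j
  exact starW h2 hns hE hW hM hq hdet

/-- cyclic `A`, dim ≥ 2: weak, `k ≥ 3`, all non-scalar targets. -/
theorem cycW3 [Fintype F] (h4 : 4 ≤ Fintype.card F) {A M : V ≃ₗ[F] V} {k : ℕ}
    (h2 : 2 ≤ finrank F V) {p : F[X]} (hk : 3 ≤ k)
    (hA : Cyc A p) (hM : NS M)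
    (hdet : LinearEquiv.det M = LinearEquiv.det A ^ k) : WP A k M := by
  obtain ⟨j, rfl⟩ : ∃ j, k = (j + 2) + 1 := ⟨k - 3, by omega⟩
  have hδ : ((-1) ^ finrank F V * ((LinearEquiv.det A ^ (j + 2) : Fˣ) : F)) ≠ 0 :=
    mul_ne_zero (pow_ne_zero _ (neg_ne_zero.2 one_ne_zero)) (Units.ne_zero _)
  obtain ⟨q', hm, hd, h0, hsr⟩ : ∃ q : F[X], q.Monic ∧ q.natDegree = finrank F V ∧
      q.coeff 0 = ((-1) ^ finrank F V * ((LinearEquiv.det A ^ (j + 2) : Fˣ) : F)) ∧ SR q := by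
    rcases Nat.lt_or_ge (finrank F V) 3 with h3 | h3
    · have h2' : finrank F V = 2 := by omega
      obtain ⟨q, h⟩ := exists_good2 h4 hδ
      exact ⟨q, h.1, h.2.1.trans h2'.symm, h.2.2⟩
    · exact exists_good3 h3 hδ
  obtain ⟨D, hD⟩ := Cyc.exists (V := V) _ rfl hm hd (by rw [h0]; exact hδ)
  have hDdet : LinearEquiv.det D = LinearEquiv.det A ^ (j + 2) := by
    apply Units.ext
    rw [hD.det, h0, ← mul_assoc, ← pow_add, ← two_mul, pow_mul]
    simp
  exact star2W h2 hD hsr (cycW h2 (by omega) hA hD hsr hDdet) hA (WP.one A) hM hdet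

end Cfsg.Agent.Lib.CovSTAR
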