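import Mathlib
import Cfsg.Agent.Lib.CovSTAR

set_option autoImplicit false
set_option maxHeartbeats 400000

/-! Strong versions of the products of cyclic classes (dimension at least 3). -/

namespace Cfsg.Agent.Lib.CovCYS

open Module Polynomial Cfsg.Agent.Lib.CyclicProd Cfsg.Agent.Lib.CovDefs Cfsg.Agent.Lib.CovSTAR

universe u

variable {F : Type u} [Field F] {V : Type u} [AddCommGroup V] [Module F V]
  [FiniteDimensional F V]

/-- the statement of piece K for the space `V` -/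
def KProp (F : Type u) [Field F] (V : Type u) [AddCommGroup V] [Module F V] : Prop :=
  ∀ (B Y₀ Z₀ : V ≃ₗ[F] V) (p q : F[X]), NS B → Cyc Y₀ p → SR p → Cyc Z₀ q →
    LinearEquiv.det Z₀ = LinearEquiv.det B * LinearEquiv.det Y₀ → ∀ γ : Fˣ,
    ∃ g h : V ≃ₗ[F] V, LinearEquiv.det h = γ ∧ (g * Y₀ * g⁻¹) * B = h * Z₀ * h⁻¹

/-- square of a cyclic class, strong form -/
theorem cycS_two (hK : KProp F V) (h2 : 2 ≤ finrank F V) {A M : V ≃ₗ[F] V} {p q : F[X]}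
    (hA : Cyc A p) (hM : Cyc M q) (hq : SR q)
    (hdet : LinearEquiv.det M = LinearEquiv.det A ^ 2) : SP A 2 M := by
  obtain ⟨q₁, hq₁, hs₁⟩ := hM.inv
  obtain ⟨p₁, hp₁, -⟩ := hA.inv
  intro cs hcs
  obtain ⟨c₁, c₂, rfl⟩ : ∃ c₁ c₂, cs = [c₁, c₂] := List.length_eq_two.1 hcs
  obtain ⟨g, h, hh, hgh⟩ := hK A M⁻¹ A⁻¹ q₁ p₁ (Cyc.ns hA h2) hq₁ (hs₁ hq) hp₁ (by
    rw [map_inv, map_inv, hdet]; group) (c₁⁻¹ * c₂)
  obtain ⟨z, hz, hzM⟩ := Full.of_sr hM hq (c₁ * LinearEquiv.det g)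
  have h1 : g * M * g⁻¹ = A * (h * A * h⁻¹) := by
    have h5 := congrArg (fun x => A * x⁻¹) hgh
    simp only [mul_inv_rev, inv_inv] at h5
    calc g * M * g⁻¹ = A * (A⁻¹ * (g * (M * g⁻¹))) := by group
      _ = _ := h5
      _ = _ := by group
  have hMe : M = ((z * g⁻¹) * A * (z * g⁻¹)⁻¹) * ((z * g⁻¹ * h) * A * (z * g⁻¹ * h)⁻¹) := by
    have h4 : M = z * M * z⁻¹ := by rw [hzM]; group
    have h3 : M = g⁻¹ * (g * M * g⁻¹) * g := by group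
    rw [h1] at h3
    rw [h4]
    conv_lhs => rw [h3]
    group
  refine ⟨z * g⁻¹, _, ?_, ⟨z * g⁻¹ * h, 1, ?_, rfl, by rw [mul_one]⟩, hMe⟩
  · rw [map_mul, hz, map_inv, mul_inv_cancel_right]
  · rw [map_mul, map_mul, hz, map_inv, mul_inv_cancel_right, hh, mul_inv_cancel_left]

theorem exists_good_op (h3 : 3 ≤ finrank F V) (δ : Fˣ) :
    ∃ (D : V ≃ₗ[F] V) (q : F[X]), Cyc D q ∧ SR q ∧ LinearEquiv.det D = δ := by
  have hδ : ((-1) ^ finrank F V * (δ : F)) ≠ 0 :=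
    mul_ne_zero (pow_ne_zero _ (neg_ne_zero.2 one_ne_zero)) (Units.ne_zero _)
  obtain ⟨q, hm, hd, h0, hsr⟩ := exists_good3 h3 hδ
  obtain ⟨D, hD⟩ := Cyc.exists (V := V) _ rfl hm hd (by rw [h0]; exact hδ)
  refine ⟨D, q, hD, hsr, ?_⟩
  apply Units.ext
  rw [hD.det, h0, ← mul_assoc, ← pow_add, ← two_mul, pow_mul]
  simp

/-- cyclic `A`, dim ≥ 3: strong, `k ≥ 2`, good targets. -/
theorem cycS_aux (hK : KProp F V) (h3 : 3 ≤ finrank F V) {A : V ≃ₗ[F] V} {p : F[X]}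
    (hA : Cyc A p) (j : ℕ) : ∀ {M : V ≃ₗ[F] V} {q : F[X]}, Cyc M q → SR q →
    LinearEquiv.det M = LinearEquiv.det A ^ (j + 2) → SP A (j + 2) M := by
  induction j with
  | zero => exact fun hM hq hdet => cycS_two hK (by omega) hA hM hq hdet
  | succ j ih =>
    intro M q hM hq hdet
    obtain ⟨D, r, hD, hr, hDd⟩ := exists_good_op h3 (LinearEquiv.det A ^ (j + 2))
    exact star (by omega) (Cyc.ns hA (by omega)) hD (ih hD hr hDd) hM hq hdet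

theorem cycS_of (hK : KProp F V) (h3 : 3 ≤ finrank F V) {A M : V ≃ₗ[F] V} {k : ℕ} {p q : F[X]}
    (hk : 2 ≤ k) (hA : Cyc A p) (hM : Cyc M q) (hq : SR q)
    (hdet : LinearEquiv.det M = LinearEquiv.det A ^ k) : SP A k M := by
  obtain ⟨j, rfl⟩ : ∃ j, k = j + 2 := ⟨k - 2, by omega⟩
  exact cycS_aux hK h3 hA j hM hq hdet

/-- cyclic `A`, dim ≥ 3: strong, `k ≥ 3`, non-scalar targets. -/
theorem cycS3_of (hK : KProp F V) (h3 : 3 ≤ finrank F V) {A M : V ≃ₗ[F] V} {k : ℕ} {p : F[X]}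
    (hk : 3 ≤ k) (hA : Cyc A p) (hM : NS M)
    (hdet : LinearEquiv.det M = LinearEquiv.det A ^ k) : SP A k M := by
  obtain ⟨j, rfl⟩ : ∃ j, k = (j + 2) + 1 := ⟨k - 3, by omega⟩
  obtain ⟨D, r, hD, hr, hDd⟩ := exists_good_op h3 (LinearEquiv.det A ^ (j + 2))
  have hDS := cycS_aux hK h3 hA j hD hr hDd
  obtain ⟨r₁, hr₁, hs₁⟩ := hD.inv
  intro cs hcs
  obtain ⟨cs', c, rfl⟩ : ∃ cs' c, cs = cs' ++ [c] := by
    rcases List.eq_nil_or_concat cs with h | ⟨l, c, h⟩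
    · rw [h] at hcs; simp at hcs
    · exact ⟨l, c, by simpa using h⟩
  have hcs' : cs'.length = j + 2 := by simpa using hcs
  obtain ⟨g, h, hh, hgh⟩ := hK M D⁻¹ A r₁ p hM hr₁ (hs₁ hr) hA (by
    rw [hdet, map_inv, hDd, pow_succ', mul_assoc, mul_inv_cancel, mul_one]) c
  have hMe : M = (g * D * g⁻¹) * (h * A * h⁻¹) := by rw [← hgh]; group
  rw [hMe]
  exact IP.append ((hDS.conj g) cs' hcs') ⟨h, 1, hh, rfl, by rw [mul_one]⟩

end Cfsg.Agent.Lib.CovCYS
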