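import Mathlib
import Cfsg.Agent.Lib.CovDefs

set_option autoImplicit false

namespace Cfsg.Agent.Lib.CovDefs

open Module Polynomial Cfsg.Agent.Lib.CyclicProd

universe u

variable {F : Type u} [Field F] {V : Type u} [AddCommGroup V] [Module F V]

/-- `H A`: a good element in the `⌊n/2⌋`-th power. -/
def H (A : V ≃ₗ[F] V) : Prop := ∃ (D : V ≃ₗ[F] V) (p : F[X]), Cyc D p ∧ SR p ∧
  SP A (finrank F V / 2) D ∧
  (Even (finrank F V) → LinearEquiv.det A = 1 → SP A (finrank F V / 2) D⁻¹)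

/-- `G A`: all good classes in all larger powers. -/
def G (A : V ≃ₗ[F] V) : Prop := ∀ k : ℕ, finrank F V / 2 + 1 ≤ k → ∀ (M : V ≃ₗ[F] V) (q : F[X]),
  Cyc M q → SR q → LinearEquiv.det M = LinearEquiv.det A ^ k → SP A k M

end Cfsg.Agent.Lib.CovDefs
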