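import Mathlib
import Cfsg.Agent.Lib.CovDefs
import Cfsg.Agent.Lib.CovBas
import Cfsg.Agent.Lib.CovBas2
import Cfsg.Agent.Lib.CovBas3
import Cfsg.Agent.Lib.CovSTAR

set_option autoImplicit false

/-!
Peeling off scalar blocks: `PEEL` of the covering number of `PSL_n(F)` (S2483).
-/

namespace Cfsg.Agent.Lib.CovPEEL

open Module Polynomial Cfsg.Agent.Lib.CyclicProd Cfsg.Agent.Lib.CovDefs

universe u

section general

variable {F : Type u} [Field F] {V : Type u} [AddCommGroup V] [Module F V]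

/-- a product of `N` conjugates of `A` without common `l`-eigenvector. -/
def Good (l : Fˣ) (A : V ≃ₗ[F] V) (N : ℕ) (M : V ≃ₗ[F] V) : Prop :=
  ∃ As : List (V ≃ₗ[F] V), As.length = N ∧ (∀ B ∈ As, ∃ g : V ≃ₗ[F] V, B = g * A * g⁻¹) ∧
    As.prod = M ∧ ∀ x : V, (∀ B ∈ As, B x = (l : F) • x) → x = 0

theorem wp_of_list (A : V ≃ₗ[F] V) (As : List (V ≃ₗ[F] V))
    (h : ∀ B ∈ As, ∃ g : V ≃ₗ[F] V, B = g * A * g⁻¹) : WP A As.length As.prod := by
  induction As with
  | nil => exact WP.zero A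
  | cons B L ih =>
    obtain ⟨cs, hcs, hip⟩ := ih fun B hB => h B (List.mem_cons_of_mem _ hB)
    obtain ⟨g, rfl⟩ := h B List.mem_cons_self
    exact ⟨LinearEquiv.det g :: cs, by simp [hcs], g, L.prod, rfl, hip, by simp⟩

theorem Good.wp {l : Fˣ} {A : V ≃ₗ[F] V} {N : ℕ} {M : V ≃ₗ[F] V} (h : Good l A N M) :
    WP A N M := by
  obtain ⟨As, rfl, h1, rfl, -⟩ := h
  exact wp_of_list A As h1

theorem list_of_ip {A : V ≃ₗ[F] V} {cs : List Fˣ} : ∀ {M : V ≃ₗ[F] V}, IP A cs M →
    ∃ As : List (V ≃ₗ[F] V), As.length = cs.length ∧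
      (∀ B ∈ As, ∃ g : V ≃ₗ[F] V, B = g * A * g⁻¹) ∧ As.prod = M := by
  induction cs with
  | nil =>
    intro M h
    have h : M = 1 := h
    subst h
    exact ⟨[], rfl, by simp, rfl⟩
  | cons c cs ih =>
    intro M h
    obtain ⟨g, P, -, hP, rfl⟩ := h
    obtain ⟨As, h1, h2, rfl⟩ := ih hP
    refine ⟨(g * A * g⁻¹) :: As, by simp [h1], ?_, by simp⟩
    intro B hB
    rcases List.mem_cons.1 hB with rfl | hB
    · exact ⟨g, rfl⟩
    · exact h2 B hB

theorem prod_apply_of_forall (c : F) (x : V) (L : List (V ≃ₗ[F] V))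
    (h : ∀ B ∈ L, B x = c • x) : L.prod x = c ^ L.length • x := by
  induction L with
  | nil => simp
  | cons B L ih =>
    rw [List.prod_cons, LinearEquiv.mul_apply, ih fun B hB => h B (List.mem_cons_of_mem _ hB),
      map_smul, h B List.mem_cons_self, smul_smul, List.length_cons, pow_succ]

theorem prod_map_conj {W : Type u} [AddCommGroup W] [Module F W] (e : V ≃ₗ[F] W)
    (L : List (V ≃ₗ[F] V)) :
    (L.map fun T => (e.symm.trans T).trans e).prod = (e.symm.trans L.prod).trans e := by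
  induction L with
  | nil => ext x; simp
  | cons B L ih =>
    rw [List.map_cons, List.prod_cons, ih, List.prod_cons]
    ext x
    simp

theorem Good.of_sim {W : Type u} [AddCommGroup W] [Module F W] {l : Fˣ} {A : V ≃ₗ[F] V}
    {B : W ≃ₗ[F] W} (e : V ≃ₗ[F] W) (he : ∀ x, e (A x) = B (e x)) {N : ℕ} {M : V ≃ₗ[F] V}
    (h : Good l A N M) : Good l B N ((e.symm.trans M).trans e) := by
  obtain ⟨As, h1, h2, h3, h4⟩ := h
  refine ⟨As.map fun T => (e.symm.trans T).trans e, by simp [h1], ?_, by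
    rw [prod_map_conj, h3], ?_⟩
  · intro T hT
    obtain ⟨T', hT', rfl⟩ := List.mem_map.1 hT
    obtain ⟨g, rfl⟩ := h2 T' hT'
    refine ⟨(e.symm.trans g).trans e, ?_⟩
    have hB : B = (e.symm.trans A).trans e := by
      ext x
      simp [he]
    rw [hB]
    ext x
    have : ((e.symm.trans g).trans e)⁻¹ x = e (g⁻¹ (e.symm x)) := rfl
    simp only [LinearEquiv.mul_apply, LinearEquiv.trans_apply, this, LinearEquiv.symm_apply_apply]
  · intro x hx
    have : e.symm x = 0 := by
      apply h4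
      intro T hT
      have := hx _ (List.mem_map.2 ⟨T, hT, rfl⟩)
      apply e.injective
      simpa using this
    simpa using this

/-! ### linear algebra -/

/-- moving a linearly independent family to another. -/
theorem exists_equiv_family [FiniteDimensional F V] {ι : Type} [Finite ι] {u w : ι → V}
    (hu : LinearIndependent F u) (hw : LinearIndependent F w) :
    ∃ g : V ≃ₗ[F] V, ∀ i, g (u i) = w i := by
  let f := hu.linearCombinationEquiv.symm ≪≫ₗ hw.linearCombinationEquiv
  have : FiniteDimensional F (Submodule.span F (Set.range u)) :=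
    inferInstance
  obtain ⟨g, hg⟩ := Submodule.exists_linearEquiv_restrict_eq f
  refine ⟨g, fun i => ?_⟩
  have qu : (hu.linearCombinationEquiv (Finsupp.single i 1) : V) = u i := by simp
  have qw : (hw.linearCombinationEquiv (Finsupp.single i 1) : V) = w i := by simp
  rw [← qu, ← hg, ← qw]
  simp [f]

theorem exists_o [FiniteDimensional F V] (h3 : 3 ≤ finrank F V) (M : V ≃ₗ[F] V) {e : V}
    (he : ∀ c : F, M e ≠ c • e) :
    ∃ o : V, (∀ a b : F, o ≠ a • e + b • M e) ∧ (∀ a b : F, o ≠ a • M o + b • M e) := by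
  obtain ⟨o, ho⟩ : ∃ o : V, o ∉ Submodule.span F ({e, M e} : Set V) := by
    by_contra hcon
    push Not at hcon
    have htop : Submodule.span F ({e, M e} : Set V) = ⊤ := by
      rw [eq_top_iff]
      exact fun x _ => hcon x
    have h1 : finrank F (Submodule.span F ({e, M e} : Set V)) ≤ 2 := by
      classical
      have := finrank_span_finset_le_card (R := F) ({e, M e} : Finset V)
      rw [Set.finrank] at this
      refine le_trans (le_of_eq ?_) (this.trans Finset.card_le_two)
      rw [Finset.coe_insert, Finset.coe_singleton]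
    rw [htop, finrank_top] at h1
    omega
  have ho' : ∀ a b : F, o ≠ a • e + b • M e := by
    intro a b h
    exact ho (Submodule.mem_span_pair.2 ⟨a, b, h.symm⟩)
  by_cases h : ∀ a b : F, o ≠ a • M o + b • M e
  · exact ⟨o, ho', h⟩
  push Not at h
  obtain ⟨p, q, hpq⟩ := h
  refine ⟨o + e, ?_, ?_⟩
  · intro a b h
    exact ho' (a - 1) b (by rw [sub_smul, one_smul]; rw [sub_add_eq_add_sub, ← h]; abel)
  · intro a b h
    -- e = r • M o + s • M e
    have h1 : e = (a - p) • M o + (a + b - q) • M e := by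
      calc e = (a • M (o + e) + b • M e) - o := by rw [← h]; abel
        _ = (a • M (o + e) + b • M e) - (p • M o + q • M e) := by rw [← hpq]
        _ = _ := by rw [map_add]; module
    by_cases hr : a - p = 0
    · rw [hr, zero_smul, zero_add] at h1
      by_cases hs : a + b - q = 0
      · rw [hs, zero_smul] at h1
        exact he 0 (by rw [h1]; simp)
      · exact he (a + b - q)⁻¹ (by
          nth_rewrite 2 [h1]
          rw [smul_smul, inv_mul_cancel₀ hs, one_smul])
    · have h2 : M o = (a - p)⁻¹ • (e - (a + b - q) • M e) := by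
        nth_rewrite 1 [h1]
        rw [add_sub_cancel_right, smul_smul, inv_mul_cancel₀ hr, one_smul]
      apply ho' (p * (a - p)⁻¹) (q - p * (a - p)⁻¹ * (a + b - q))
      nth_rewrite 1 [hpq]
      rw [h2]
      module

end general

/-! ### the lifting lemma -/

section lift

variable {F : Type u} [Field F] {V : Type u} [AddCommGroup V] [Module F V]

/-- the shear `(t, v) ↦ (t + ψ v, v)`. -/
def shear (ψ : V →ₗ[F] F) : (F × V) ≃ₗ[F] (F × V) where
  toFun x := (x.1 + ψ x.2, x.2)
  invFun x := (x.1 - ψ x.2, x.2)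
  map_add' x y := by
    ext
    · simp only [Prod.fst_add, Prod.snd_add, map_add]; ring
    · simp
  map_smul' c x := by
    ext
    · simp only [Prod.smul_fst, Prod.smul_snd, map_smul, smul_eq_mul, RingHom.id_apply]; ring
    · simp
  left_inv x := by simp
  right_inv x := by simp

theorem shear_apply (ψ : V →ₗ[F] F) (x : F × V) : shear ψ x = (x.1 + ψ x.2, x.2) := rfl

theorem shear_inv_apply (ψ : V →ₗ[F] F) (x : F × V) : (shear ψ)⁻¹ x = (x.1 - ψ x.2, x.2) := rfl

theorem det_shear (ψ : V →ₗ[F] F) : LinearEquiv.det (shear ψ) = 1 := by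
  have hfv : (ψ.comp (LinearMap.snd F F V)) ((1 : F), (0 : V)) = 0 := by simp
  rw [← LinearEquiv.transvection.det_eq_one hfv]
  congr 1
  apply LinearEquiv.ext
  intro x
  rw [shear_apply, LinearEquiv.transvection.apply]
  ext
  · simp
  · simp

theorem lift_conj (l : Fˣ) {A' : V ≃ₗ[F] V} {B : V ≃ₗ[F] V} (hB : ∃ g : V ≃ₗ[F] V, B = g * A' * g⁻¹)
    (ψ : V →ₗ[F] F) :
    ∃ g : (F × V) ≃ₗ[F] (F × V), ∀ x : F × V,
      (g * bs (sc F l) A' * g⁻¹) x = ((l : F) * x.1 + ψ (B x.2 - (l : F) • x.2), B x.2) := by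
  obtain ⟨g, rfl⟩ := hB
  refine ⟨shear ψ * bs 1 g, fun x => ?_⟩
  rw [mul_inv_rev, bs_inv]
  simp only [LinearEquiv.mul_apply, shear_inv_apply, bs_apply, shear_apply]
  ext
  · have : ∀ t : F, (sc F l) t = (l : F) * t := fun t => rfl
    simp only [inv_one, LinearEquiv.coe_one, id, map_sub, map_smul, smul_eq_mul, this]
    ring
  · rfl

/-- the realizable functionals. -/
def R (l : F) : List (V ≃ₗ[F] V) → Submodule F (Dual F V)
  | [] => ⊥
  | B :: L => R l L ⊔ LinearMap.range
      (((B.toLinearMap - l • LinearMap.id) ∘ₗ L.prod.toLinearMap).dualMap)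

theorem mem_coann_R (l : F) (hl : l ≠ 0) (L : List (V ≃ₗ[F] V)) (v : V)
    (hv : v ∈ (R l L).dualCoannihilator) : ∀ B ∈ L, B v = l • v := by
  induction L with
  | nil => simp
  | cons B L ih =>
    rw [Submodule.mem_dualCoannihilator] at hv
    have h1 : ∀ B ∈ L, B v = l • v := by
      apply ih
      rw [Submodule.mem_dualCoannihilator]
      intro φ hφ
      exact hv φ (Submodule.mem_sup_left hφ)
    have h2 : B (L.prod v) - l • L.prod v = 0 := by
      rw [← Module.forall_dual_apply_eq_zero_iff F]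
      intro ψ
      exact hv _ (Submodule.mem_sup_right ⟨ψ, rfl⟩)
    intro B' hB'
    rcases List.mem_cons.1 hB' with rfl | hB'
    · rw [prod_apply_of_forall l v L h1, map_smul, smul_comm l, ← smul_sub] at h2
      have h3 := (smul_eq_zero.1 h2).resolve_left (pow_ne_zero _ hl)
      exact sub_eq_zero.1 h3
    · exact h1 B' hB'

theorem R_eq_top [FiniteDimensional F V] (l : F) (hl : l ≠ 0) (L : List (V ≃ₗ[F] V))
    (h : ∀ v : V, (∀ B ∈ L, B v = l • v) → v = 0) : R l L = ⊤ := by
  have h1 : (R l L).dualCoannihilator = ⊥ := by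
    rw [Submodule.eq_bot_iff]
    exact fun v hv => h v (mem_coann_R l hl L v hv)
  rw [← Subspace.dualCoannihilator_dualAnnihilator_eq (W := R l L), h1]
  simp

theorem lift (l : Fˣ) {A' : V ≃ₗ[F] V} (L : List (V ≃ₗ[F] V))
    (hL : ∀ B ∈ L, ∃ g : V ≃ₗ[F] V, B = g * A' * g⁻¹) :
    ∀ Φ ∈ R (l : F) L, ∃ Ls : List ((F × V) ≃ₗ[F] (F × V)), Ls.length = L.length ∧
      (∀ B ∈ Ls, ∃ g : (F × V) ≃ₗ[F] (F × V), B = g * bs (sc F l) A' * g⁻¹) ∧
      (∀ x, Ls.prod x = ((l : F) ^ L.length * x.1 + Φ x.2, L.prod x.2)) ∧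
      ∀ x, (∀ B ∈ Ls, B x = (l : F) • x) → ∀ B ∈ L, B x.2 = (l : F) • x.2 := by
  induction L with
  | nil =>
    intro Φ hΦ
    have : Φ = 0 := (Submodule.mem_bot F).1 hΦ
    subst this
    exact ⟨[], rfl, by simp, by simp, by simp⟩
  | cons B L ih =>
    intro Φ hΦ
    obtain ⟨Φ₁, hΦ₁, Φ₂, ⟨ψ, rfl⟩, rfl⟩ := Submodule.mem_sup.1 hΦ
    obtain ⟨Ls, h1, h2, h3, h4⟩ := ih (fun B hB => hL B (List.mem_cons_of_mem _ hB))
      ((l : F)⁻¹ • Φ₁) (Submodule.smul_mem _ _ hΦ₁)
    obtain ⟨g, hg⟩ := lift_conj l (hL B List.mem_cons_self) ψ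
    refine ⟨(g * bs (sc F l) A' * g⁻¹) :: Ls, by simp [h1], ?_, ?_, ?_⟩
    · intro B' hB'
      rcases List.mem_cons.1 hB' with rfl | hB'
      · exact ⟨g, rfl⟩
      · exact h2 B' hB'
    · intro x
      rw [List.prod_cons, LinearEquiv.mul_apply, hg, h3]
      ext
      · simp only [List.length_cons, LinearMap.smul_apply, smul_eq_mul, LinearMap.add_apply,
          LinearMap.dualMap_apply, LinearMap.comp_apply, LinearMap.sub_apply, LinearEquiv.coe_coe,
          LinearMap.id_apply, pow_succ]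
        field_simp
        ring
      · simp
    · intro x hx B' hB'
      rcases List.mem_cons.1 hB' with rfl | hB'
      · have := hx _ List.mem_cons_self
        rw [hg] at this
        exact congrArg Prod.snd this
      · exact h4 x (fun B hB => hx B (List.mem_cons_of_mem _ hB)) B' hB'

end lift

/-! ### the induction step -/

section step

variable {F : Type u} [Field F] {V : Type u} [AddCommGroup V] [Module F V]

theorem li3 {a b c : V} (h1 : ∀ s t : F, a ≠ s • b + t • c) (h2 : ∀ s : F, c ≠ s • b)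
    (hb : b ≠ 0) : LinearIndependent F ![a, b, c] := by
  rw [Fintype.linearIndependent_iff]
  intro w hw
  rw [Fin.sum_univ_three] at hw
  have hw : w 0 • a + w 1 • b + w 2 • c = 0 := hw
  have h0 : w 0 = 0 := by
    by_contra hne
    apply h1 (-(w 0)⁻¹ * w 1) (-(w 0)⁻¹ * w 2)
    calc a = (w 0)⁻¹ • (w 0 • a + w 1 • b + w 2 • c) + ((-(w 0)⁻¹ * w 1) • b +
          (-(w 0)⁻¹ * w 2) • c) := by
            have : (w 0)⁻¹ • (w 0 • a) = a := by rw [smul_smul, inv_mul_cancel₀ hne, one_smul]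
            rw [smul_add, smul_add, this]
            module
      _ = _ := by rw [hw, smul_zero, zero_add]
  rw [h0, zero_smul, zero_add] at hw
  have h3 : w 2 = 0 := by
    by_contra hne
    apply h2 (-(w 2)⁻¹ * w 1)
    calc c = (w 2)⁻¹ • (w 1 • b + w 2 • c) + (-(w 2)⁻¹ * w 1) • b := by
            have : (w 2)⁻¹ • (w 2 • c) = c := by rw [smul_smul, inv_mul_cancel₀ hne, one_smul]
            rw [smul_add, this]
            module
      _ = _ := by rw [hw, smul_zero, zero_add]
  rw [h3, zero_smul, add_zero] at hw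
  have h4 : w 1 = 0 := (smul_eq_zero.1 hw).resolve_right hb
  intro i
  fin_cases i
  · exact h0
  · exact h4
  · exact h3

theorem det_conj' (g A : V ≃ₗ[F] V) : LinearEquiv.det (g * A * g⁻¹) = LinearEquiv.det A := by
  rw [map_mul, map_mul, map_inv, mul_comm (LinearEquiv.det g), mul_assoc, mul_inv_cancel, mul_one]

theorem det_sc_self (c : Fˣ) : LinearEquiv.det (sc F c) = c := by
  apply Units.ext
  rw [LinearEquiv.coe_det]
  have : (sc F c : F →ₗ[F] F) = (c : F) • LinearMap.id := by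
    ext
    rfl
  rw [this, LinearMap.det_smul, finrank_self, pow_one, LinearMap.det_id, mul_one]

theorem step [FiniteDimensional F V] (l : Fˣ) {A' : V ≃ₗ[F] V} (h2 : 2 ≤ finrank F V)
    (hA' : NS A') {N : ℕ}
    (IH : ∀ M' : V ≃ₗ[F] V, NS M' → LinearEquiv.det M' = LinearEquiv.det A' ^ N →
      Good l A' N M')
    {M : (F × V) ≃ₗ[F] (F × V)} (hM : NS M)
    (hdet : LinearEquiv.det M = LinearEquiv.det (bs (sc F l) A') ^ (N + 1)) :
    Good l (bs (sc F l) A') (N + 1) M := by
  have h3 : 3 ≤ finrank F (F × V) := by rw [finrank_prod, finrank_self]; omega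
  have hl : (l : F) ≠ 0 := l.ne_zero
  have hlN : (l : F) ^ N ≠ 0 := pow_ne_zero _ hl
  obtain ⟨e, he⟩ := hM
  obtain ⟨o, ho1, ho2⟩ := exists_o h3 M he
  obtain ⟨u, hu⟩ := hA'
  have hu0 : u ≠ 0 := by
    rintro rfl
    exact hu 0 (by simp)
  have he0 : e ≠ 0 := by
    rintro rfl
    exact he 0 (by simp)
  have hu' : LinearIndependent F ![((1 : F), (0 : V)), (0, u), (0, A' u)] := by
    apply li3
    · intro s t h
      have := congrArg Prod.fst h
      simp at this
    · intro s h
      have := congrArg Prod.snd h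
      exact hu s (by simpa using this)
    · intro h
      exact hu0 (congrArg Prod.snd h)
  have hw' : LinearIndependent F ![o, e, ((l : F) ^ N)⁻¹ • M e] := by
    apply li3
    · intro s t h
      rw [smul_smul] at h
      exact ho1 _ _ h
    · intro s h
      apply he ((l : F) ^ N * s)
      rw [mul_smul, ← h, smul_smul, mul_inv_cancel₀ hlN, one_smul]
    · exact he0
  obtain ⟨g, hg⟩ := exists_equiv_family hu' hw'
  have hg0 : g (1, 0) = o := hg 0
  have hg1 : g (0, u) = e := hg 1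
  have hg2 : g (0, A' u) = ((l : F) ^ N)⁻¹ • M e := hg 2
  obtain ⟨A₁, hA₁⟩ : ∃ A₁, A₁ = g * bs (sc F l) A' * g⁻¹ := ⟨_, rfl⟩
  have hA₁o : A₁ o = (l : F) • o := by
    have h4 : g⁻¹ o = (1, 0) := by
      rw [← hg0]
      exact g.symm_apply_apply _
    rw [hA₁, LinearEquiv.mul_apply, LinearEquiv.mul_apply, h4, bs_apply, ← hg0, ← map_smul]
    congr 1
    ext
    · rfl
    · simp
  have hA₁e : A₁ e = ((l : F) ^ N)⁻¹ • M e := by
    have h4 : g⁻¹ e = (0, u) := by
      rw [← hg1]
      exact g.symm_apply_apply _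
    rw [hA₁, LinearEquiv.mul_apply, LinearEquiv.mul_apply, h4, bs_apply, ← hg2]
    simp
  obtain ⟨P, hP⟩ : ∃ P, P = A₁⁻¹ * M := ⟨_, rfl⟩
  have hMP : M = A₁ * P := by rw [hP]; group
  have hPe : P e = (l : F) ^ N • e := by
    apply A₁.injective
    rw [← LinearEquiv.mul_apply, ← hMP, map_smul, hA₁e, smul_smul, mul_inv_cancel₀ hlN, one_smul]
  obtain ⟨k, hk⟩ : ∃ k : (F × V) ≃ₗ[F] (F × V), k (1, 0) = e := by
    obtain ⟨k, hk⟩ := exists_equiv_family (F := F) (V := F × V) (ι := Fin 1)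
      (u := ![((1 : F), (0 : V))]) (w := ![e])
      (by
        rw [linearIndependent_unique_iff]
        intro h
        have := congrArg Prod.fst h
        simp at this)
      (by
        rw [linearIndependent_unique_iff]
        simpa using he0)
    exact ⟨k, hk 0⟩
  obtain ⟨P1, hP1⟩ : ∃ P1, P1 = k⁻¹ * P * k := ⟨_, rfl⟩
  have hP1e : P1 (1, 0) = ((l : F) ^ N, 0) := by
    rw [hP1, LinearEquiv.mul_apply, LinearEquiv.mul_apply, hk, hPe, map_smul]
    have h4 : k⁻¹ e = (1, 0) := by
      rw [← hk]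
      exact k.symm_apply_apply _
    rw [h4]
    ext
    · simp
    · simp
  let Pb : V →ₗ[F] V := LinearMap.snd F F V ∘ₗ P1.toLinearMap ∘ₗ LinearMap.inr F F V
  let Φ : V →ₗ[F] F := LinearMap.fst F F V ∘ₗ P1.toLinearMap ∘ₗ LinearMap.inr F F V
  have hP1' : ∀ x : F × V, P1 x = ((l : F) ^ N * x.1 + Φ x.2, Pb x.2) := by
    intro x
    have : x = x.1 • ((1 : F), (0 : V)) + (0, x.2) := by
      ext
      · simp
      · simp
    nth_rewrite 1 [this]
    rw [map_add, map_smul, hP1e]
    ext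
    · simp [Φ, mul_comm]
    · simp [Pb]
  have hinj : Function.Injective Pb := by
    rw [injective_iff_map_eq_zero]
    intro v hv
    have h4 : P1 (-((l : F) ^ N)⁻¹ * Φ v, v) = 0 := by
      rw [hP1', hv]
      ext
      · simp [hlN]
      · rfl
    rw [map_eq_zero_iff _ P1.injective] at h4
    exact congrArg Prod.snd h4
  obtain ⟨Q, hQ⟩ : ∃ Q : V ≃ₗ[F] V, ∀ v, Q v = Pb v :=
    ⟨LinearEquiv.ofInjectiveEndo Pb hinj, fun v => rfl⟩
  have hP1'' : P1 = shear (Φ ∘ₗ Q⁻¹.toLinearMap) * bs (sc F (l ^ N)) Q := by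
    apply LinearEquiv.ext
    intro x
    rw [hP1', LinearEquiv.mul_apply, bs_apply, shear_apply]
    have h4 : Q⁻¹ (Q x.2) = x.2 := Q.symm_apply_apply _
    ext
    · simp only [LinearMap.comp_apply, LinearEquiv.coe_coe, h4]
      congr 1
    · exact (hQ _).symm
  have hdetQ : LinearEquiv.det Q = LinearEquiv.det A' ^ N := by
    have h4 : LinearEquiv.det P1 = l ^ N * LinearEquiv.det Q := by
      rw [hP1'', map_mul, det_shear, one_mul, bs_det, det_sc_self]
    have h5 : LinearEquiv.det P1 = LinearEquiv.det P := by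
      have := det_conj' k⁻¹ P
      rw [inv_inv] at this
      rw [hP1, this]
    have h6 : LinearEquiv.det P = (l * LinearEquiv.det A') ^ N := by
      rw [hP, map_mul, map_inv, hA₁, det_conj', hdet, pow_succ', inv_mul_cancel_left, bs_det,
        det_sc_self]
    rw [h5, h6, mul_pow] at h4
    exact (mul_left_cancel h4).symm
  have hNS : NS Q := by
    refine ⟨(k⁻¹ o).2, fun c hc => ?_⟩
    have h4 : ∃ s : F, P1 (k⁻¹ o) = c • k⁻¹ o + s • ((1 : F), (0 : V)) := by
      refine ⟨(P1 (k⁻¹ o)).1 - c * (k⁻¹ o).1, ?_⟩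
      ext
      · simp
      · rw [hP1', ← hQ, hc]
        simp
    obtain ⟨s, hs⟩ := h4
    have h5 : P o = c • o + s • e := by
      have h6 : k (P1 (k⁻¹ o)) = P o := by
        have h7 : k (k⁻¹ o) = o := k.apply_symm_apply _
        have h8 : k * P1 = P * k := by rw [hP1]; group
        rw [← LinearEquiv.mul_apply, h8, LinearEquiv.mul_apply, h7]
      have h7 : k (k⁻¹ o) = o := k.apply_symm_apply _
      rw [← h6, hs, map_add, map_smul, map_smul, hk, h7]
    have h6 : M o = (c * l) • o + (s * ((l : F) ^ N)⁻¹) • M e := by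
      rw [hMP, LinearEquiv.mul_apply, h5, map_add, map_smul, map_smul, hA₁o, ← hMP, hA₁e,
        smul_smul, smul_smul]
    by_cases hc0 : c = 0
    · rw [hc0, zero_mul, zero_smul, zero_add, ← map_smul] at h6
      apply ho1 (s * ((l : F) ^ N)⁻¹) 0
      rw [zero_smul, add_zero]
      exact M.injective h6
    · have hcl : c * (l : F) ≠ 0 := mul_ne_zero hc0 hl
      apply ho2 (c * l)⁻¹ (-(c * l)⁻¹ * (s * ((l : F) ^ N)⁻¹))
      calc o = (c * (l : F))⁻¹ • ((c * (l : F)) • o) := by
            rw [smul_smul, inv_mul_cancel₀ hcl, one_smul]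
        _ = (c * (l : F))⁻¹ • (M o - (s * ((l : F) ^ N)⁻¹) • M e) := by
            rw [h6, add_sub_cancel_right]
        _ = _ := by module
  obtain ⟨L, hL1, hL2, hL3, hL4⟩ := IH Q hNS hdetQ
  obtain ⟨Ls, hs1, hs2, hs3, hs4⟩ := lift l L hL2 Φ
    (by rw [R_eq_top (l : F) hl L hL4]; exact Submodule.mem_top)
  have hprod : Ls.prod = P1 := by
    apply LinearEquiv.ext
    intro x
    rw [hs3, hP1', hL1, hL3, hQ]
  have hmap : (Ls.map fun T => k * T * k⁻¹).prod = k * Ls.prod * k⁻¹ := by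
    clear hs1 hs2 hs3 hs4 hprod
    induction Ls with
    | nil => simp
    | cons B L ih => rw [List.map_cons, List.prod_cons, ih, List.prod_cons]; group
  refine ⟨A₁ :: Ls.map (fun T => k * T * k⁻¹), by simp [hs1, hL1], ?_, ?_, ?_⟩
  · intro B hB
    rcases List.mem_cons.1 hB with rfl | hB
    · exact ⟨g, hA₁⟩
    · obtain ⟨T, hT, rfl⟩ := List.mem_map.1 hB
      obtain ⟨g', rfl⟩ := hs2 T hT
      exact ⟨k * g', by group⟩
  · rw [List.prod_cons, hmap, hprod, hP1, hMP]
    group
  · intro x hx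
    have h4 : ∀ B ∈ Ls, B (k⁻¹ x) = (l : F) • k⁻¹ x := by
      intro B hB
      have h5 := hx (k * B * k⁻¹) (List.mem_cons_of_mem _ (List.mem_map.2 ⟨B, hB, rfl⟩))
      apply k.injective
      have h7 : k (k⁻¹ x) = x := k.apply_symm_apply _
      rw [map_smul, h7]
      exact h5
    have h5 : (k⁻¹ x).2 = 0 := hL4 _ (hs4 _ h4)
    have h6 : k⁻¹ x = (k⁻¹ x).1 • ((1 : F), (0 : V)) := by
      ext
      · simp
      · rw [h5]
        simp
    have h7 : x = (k⁻¹ x).1 • e := by
      have h8 : k (k⁻¹ x) = x := k.apply_symm_apply _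
      rw [← hk, ← map_smul, ← h6, h8]
    obtain ⟨t, ht⟩ : ∃ t : F, x = t • e := ⟨_, h7⟩
    have h8 := hx A₁ List.mem_cons_self
    rw [ht, map_smul, hA₁e] at h8
    by_cases ht0 : t = 0
    · rw [ht, ht0, zero_smul]
    exfalso
    apply he ((l : F) ^ N * l)
    have h9 : ((l : F) ^ N)⁻¹ • M e = (l : F) • e := by
      rw [smul_comm (l : F) t e] at h8
      exact smul_right_injective _ ht0 h8
    rw [mul_smul, ← h9, smul_smul, mul_inv_cancel₀ hlN, one_smul]

end step


/-! ### the base case -/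

section base

variable {F : Type u} [Field F] {V : Type u} [AddCommGroup V] [Module F V]

theorem eval_of_eigen {A : V ≃ₗ[F] V} {p : F[X]} (h : Cyc A p) {c : F} {x : V} (hx : x ≠ 0)
    (hc : A x = c • x) : p.eval c = 0 := by
  have h1 : Module.End.HasEigenvector A.toLinearMap c x :=
    ⟨Module.End.mem_eigenspace_iff.2 hc, hx⟩
  have h2 := Module.End.aeval_apply_of_hasEigenvector (p := p) h1
  rw [h.2.2.2] at h2
  exact (smul_eq_zero.1 h2.symm).resolve_right hx

theorem base [FiniteDimensional F V] [Fintype F] (h4 : 4 ≤ Fintype.card F) (l : Fˣ) {C : V ≃ₗ[F] V} {f : F[X]}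
    (hC : Cyc C f) (h3 : 3 ≤ finrank F V) {N : ℕ} (hN : 3 ≤ N) {M : V ≃ₗ[F] V} (hM : NS M)
    (hdet : LinearEquiv.det M = LinearEquiv.det C ^ N) : Good l C N M := by
  classical
  obtain ⟨N, rfl⟩ : ∃ N', N = N' + 1 := ⟨N - 1, by omega⟩
  obtain ⟨c, hc⟩ : ∃ c : Fˣ, c ≠ l ^ N := by
    have : Nontrivial Fˣ := by
      rw [← Fintype.one_lt_card_iff_nontrivial, Fintype.card_units]
      omega
    exact exists_ne _
  obtain ⟨n, hn⟩ : ∃ n, finrank F V = n + 1 := ⟨finrank F V - 1, by omega⟩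
  have hb : (-1) ^ (n + 1) * (-(c : F)⁻¹) * ((LinearEquiv.det C ^ N : Fˣ) : F) ≠ 0 := by
    refine mul_ne_zero (mul_ne_zero (pow_ne_zero _ (by simp)) (neg_ne_zero.2 (by simp))) ?_
    exact Units.ne_zero _
  obtain ⟨h, hh1, hh2, hh3, hh4⟩ := rootless (F := F) (e := n) (by omega) hb
  have hg1 : (h * (X - Polynomial.C (c : F))).Monic := hh1.mul (monic_X_sub_C _)
  have hg2 : (h * (X - Polynomial.C (c : F))).natDegree = n + 1 := by
    rw [hh1.natDegree_mul (monic_X_sub_C _), hh2, natDegree_X_sub_C]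
  have hg3 : (h * (X - Polynomial.C (c : F))).coeff 0 =
      (-1) ^ (n + 1) * ((LinearEquiv.det C ^ N : Fˣ) : F) := by
    rw [mul_coeff_zero, hh3]
    simp only [coeff_sub, coeff_X_zero, coeff_C_zero, zero_sub]
    have : (c : F) ≠ 0 := c.ne_zero
    field_simp
  have hsr : SR (h * (X - Polynomial.C (c : F))) := ⟨c, h, rfl, hh4 _⟩
  obtain ⟨D, hD⟩ := Cyc.exists (V := V) (n + 1) hn hg1 hg2 (by
    rw [hg3]
    exact mul_ne_zero (pow_ne_zero _ (by simp)) (Units.ne_zero _))
  have hdetD : LinearEquiv.det D = LinearEquiv.det C ^ N := by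
    apply Units.ext
    rw [hD.det, hg3, hn, ← mul_assoc, ← mul_pow]
    simp
  have hwp : WP C N D := CovSTAR.cycW (by omega) (by omega) hC hD hsr hdetD
  obtain ⟨q, hq, hq'⟩ := hD.inv
  obtain ⟨g, k, hgk⟩ := CovSTAR.star_weak (by omega) hM hq (hq' hsr) hC (by
    rw [hdet, map_inv, hdetD, pow_succ']
    group)
  have hMM : M = (g * D * g⁻¹) * (k * C * k⁻¹) := by
    rw [← hgk]
    group
  obtain ⟨cs, hcs, hip⟩ := hwp.conj g
  obtain ⟨As, hA1, hA2, hA3⟩ := list_of_ip hip
  refine ⟨As ++ [k * C * k⁻¹], by simp [hA1, hcs], ?_, ?_, ?_⟩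
  · intro B hB
    rcases List.mem_append.1 hB with hB | hB
    · exact hA2 B hB
    · exact ⟨k, List.mem_singleton.1 hB⟩
  · rw [List.prod_append, hA3, hMM, List.prod_singleton]
  · intro x hx
    by_contra hx0
    have h5 := prod_apply_of_forall (l : F) x As fun B hB => hx B (List.mem_append_left _ hB)
    rw [hA3, hA1, hcs] at h5
    have h6 := eval_of_eigen (hD.conj g) hx0 h5
    rw [eval_mul] at h6
    rcases mul_eq_zero.1 h6 with h6 | h6
    · exact hh4 _ h6
    · rw [eval_sub, eval_X, eval_C, sub_eq_zero] at h6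
      apply hc
      apply Units.ext
      rw [← h6, Units.val_pow_eq_pow_val]

end base

/-! ### the theorem -/

section main

variable {F : Type u} [Field F]

/-- splitting off one coordinate. -/
theorem sim_succ (m : ℕ) {U : Type u} [AddCommGroup U] [Module F U] (l : Fˣ) (C : U ≃ₗ[F] U) :
    Sim (bs (sc F l) (bs (sc (Fin m → F) l) C)) (bs (sc (Fin (m + 1) → F) l) C) := by
  refine ⟨(LinearEquiv.prodAssoc F F (Fin m → F) U).symm.trans
    ((Fin.consLinearEquiv F (fun _ : Fin (m + 1) => F)).prodCongr (LinearEquiv.refl F U)), ?_⟩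
  rintro ⟨t, v, w⟩
  ext i
  · refine Fin.cases ?_ (fun i => ?_) i
    · rfl
    · rfl
  · rfl

theorem transport {V W : Type u} [AddCommGroup V] [Module F V] [AddCommGroup W] [Module F W]
    {l : Fˣ} {A : V ≃ₗ[F] V} {B : W ≃ₗ[F] W} (h : Sim A B) {N : ℕ}
    (H : ∀ M : V ≃ₗ[F] V, NS M → LinearEquiv.det M = LinearEquiv.det A ^ N → Good l A N M)
    {M : W ≃ₗ[F] W} (hM : NS M) (hdet : LinearEquiv.det M = LinearEquiv.det B ^ N) :
    Good l B N M := by
  have hd : LinearEquiv.det A = LinearEquiv.det B := h.det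
  obtain ⟨e, he⟩ := h
  have hs : Sim M ((e.trans M).trans e.symm) := ⟨e.symm, fun x => by simp⟩
  have h1 := Good.of_sim e he (H _ (NS.of_sim hs hM) (by rw [← hs.det, hdet, hd]))
  have h2 : (e.symm.trans ((e.trans M).trans e.symm)).trans e = M := by
    ext x
    simp
  rwa [h2] at h1

theorem good_main [Fintype F] (h4 : 4 ≤ Fintype.card F) {U : Type u} [AddCommGroup U]
    [Module F U] [FiniteDimensional F U] (l : Fˣ) {C : U ≃ₗ[F] U} {f : F[X]} (hC : Cyc C f)
    (h3 : 3 ≤ finrank F U) (m : ℕ) : ∀ (N : ℕ), m + 3 ≤ N →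
    ∀ (M : ((Fin m → F) × U) ≃ₗ[F] ((Fin m → F) × U)), NS M →
      LinearEquiv.det M = LinearEquiv.det (bs (sc (Fin m → F) l) C) ^ N →
      Good l (bs (sc (Fin m → F) l) C) N M := by
  induction m with
  | zero =>
    intro N hN M hM hdet
    have hs : Sim C (bs (sc (Fin 0 → F) l) C) := by
      refine ⟨{ toFun := fun x => (0, x)
                invFun := fun x => x.2
                map_add' := ?_
                map_smul' := ?_
                left_inv := fun x => rfl
                right_inv := ?_ }, ?_⟩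
      · intro x y
        ext i
        · exact i.elim0
        · rfl
      · intro c x
        ext i
        · exact i.elim0
        · rfl
      · rintro ⟨v, x⟩
        ext i
        · exact i.elim0
        · rfl
      · intro x
        ext i
        · exact i.elim0
        · rfl
    exact transport hs (fun M' hM' hd' => base h4 l hC h3 (by omega) hM' hd') hM hdet
  | succ m ih =>
    intro N hN M hM hdet
    obtain ⟨N, rfl⟩ : ∃ N', N = N' + 1 := ⟨N - 1, by omega⟩
    have hA' : NS (bs (sc (Fin m → F) l) C) := by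
      obtain ⟨u, hu⟩ := hC.ns (by omega)
      refine ⟨(0, u), fun c hc => hu c ?_⟩
      exact congrArg Prod.snd hc
    have h2 : 2 ≤ finrank F ((Fin m → F) × U) := by
      rw [finrank_prod]
      omega
    exact transport (sim_succ m l C)
      (fun M' hM' hd' => step l h2 hA' (ih N (by omega)) hM' hd') hM hdet

/-- **Peeling**: all non-scalar targets in the `N`-th power of a scalar block plus a cyclic
block. -/
theorem PEEL [Fintype F] (h4 : 4 ≤ Fintype.card F) {E U : Type u}
    [AddCommGroup E] [Module F E] [FiniteDimensional F E]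
    [AddCommGroup U] [Module F U] [FiniteDimensional F U] (l : Fˣ) {C : U ≃ₗ[F] U} {f : F[X]}
    (hC : Cyc C f) (h3 : 3 ≤ finrank F U) {N : ℕ} (hN : finrank F E + 3 ≤ N)
    {M : (E × U) ≃ₗ[F] (E × U)} (hM : NS M)
    (hdet : LinearEquiv.det M = LinearEquiv.det (bs (sc E l) C) ^ N) :
    WP (bs (sc E l) C) N M := by
  have hs : Sim (bs (sc (Fin (finrank F E) → F) l) C) (bs (sc E l) C) := by
    let φ : (Fin (finrank F E) → F) ≃ₗ[F] E :=
      LinearEquiv.ofFinrankEq _ _ (by rw [finrank_fin_fun])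
    refine ⟨φ.prodCongr (LinearEquiv.refl F U), ?_⟩
    rintro ⟨v, x⟩
    have h1 : ∀ v, (sc (Fin (finrank F E) → F) l) v = (l : F) • v := fun v => rfl
    have h2 : ∀ v, (sc E l) v = (l : F) • v := fun v => rfl
    rw [bs_apply, h1]
    change (φ ((l : F) • v), C x) = ((l : F) • φ v, C x)
    rw [map_smul]
  exact (transport hs (good_main h4 l hC h3 _ N hN) hM hdet).wp

end main

end Cfsg.Agent.Lib.CovPEEL
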