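import Mathlib
import Cfsg.Agent.Lib.CovDefs
import Cfsg.Agent.Lib.CyclicComm
import Cfsg.Agent.Lib.CovBas3
import Cfsg.Agent.Lib.CovHG

set_option autoImplicit false
set_option linter.unusedSectionVars false

/-!
`S2483`, piece Q01: two equal quadratic blocks plus at most one scalar.
-/

namespace Cfsg.Agent.Lib.CovQ01

open Module Polynomial Cfsg.Agent.Lib.CyclicProd Cfsg.Agent.Lib.CovDefs

universe u

variable {F : Type u} [Field F]

/-! ### the matrix model -/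

/-- the plane -/
abbrev P2 (F : Type u) : Type u := Fin 2 → F

/-- operator of a matrix -/
noncomputable def L (M : Matrix (Fin 2) (Fin 2) F) (h : M.det ≠ 0) : P2 F ≃ₗ[F] P2 F :=
  LinearMap.GeneralLinearGroup.generalLinearEquiv F _
    (Matrix.GeneralLinearGroup.toLin (Matrix.GeneralLinearGroup.mkOfDetNeZero M h))

theorem L_apply (M : Matrix (Fin 2) (Fin 2) F) (h : M.det ≠ 0) (x : P2 F) :
    L M h x = M.mulVec x := rfl

theorem L_lin (M : Matrix (Fin 2) (Fin 2) F) (h : M.det ≠ 0) :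
    (L M h).toLinearMap = Matrix.toLin' M := by
  ext1 x
  rfl

theorem L_mul {M N : Matrix (Fin 2) (Fin 2) F} (h : M.det ≠ 0) (h' : N.det ≠ 0)
    {K : Matrix (Fin 2) (Fin 2) F} (hK : M * N = K) (h'' : K.det ≠ 0) :
    L M h * L N h' = L K h'' := by
  subst hK
  ext1 x
  rw [LinearEquiv.mul_apply, L_apply, L_apply, L_apply, Matrix.mulVec_mulVec]

theorem L_inj {M N : Matrix (Fin 2) (Fin 2) F} (h : M.det ≠ 0) (h' : N.det ≠ 0)
    (hK : M = N) : L M h = L N h' := by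
  subst hK; rfl

theorem det_L (M : Matrix (Fin 2) (Fin 2) F) (h : M.det ≠ 0) :
    LinearEquiv.det (L M h) = Units.mk0 M.det h := by
  ext
  rw [LinearEquiv.coe_det, L_lin, LinearMap.det_toLin']
  rfl

/-- quadratic polynomial -/
noncomputable def qp (t d : F) : F[X] := X ^ 2 - C t * X + C d

theorem qp_eq (t d : F) : qp t d = C 1 * X ^ 2 + C (-t) * X + C d := by
  simp only [qp, map_neg, map_one]; ring

theorem qp_monic (t d : F) : (qp t d).Monic := by
  rw [qp_eq]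
  exact leadingCoeff_quadratic (one_ne_zero)

theorem qp_natDegree (t d : F) : (qp t d).natDegree = 2 := by
  rw [qp_eq]
  exact natDegree_quadratic (one_ne_zero)

theorem qp_eval (t d x : F) : (qp t d).eval x = x ^ 2 - t * x + d := by
  simp [qp]

theorem finrank_P2 : finrank F (P2 F) = 2 := by simp

/-- a non-scalar operator of a plane is cyclic. -/
theorem cyc_of_ns {V : Type u} [AddCommGroup V] [Module F V] [FiniteDimensional F V]
    (h2 : finrank F V = 2) {A : V ≃ₗ[F] V} (hA : NS A) : Cyc A A.toLinearMap.charpoly := by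
  obtain ⟨u, hu⟩ := hA
  refine ⟨LinearMap.charpoly_monic _, LinearMap.charpoly_natDegree _, ⟨u, ?_⟩,
    LinearMap.aeval_self_charpoly _⟩
  intro W hW hWs
  have hli : LinearIndependent F ![u, A u] := by
    rw [LinearIndependent.pair_iff]
    intro s t hst
    have ht : t = 0 := by
      by_contra ht
      apply hu (-(t⁻¹ * s))
      have : t • A u = -(s • u) := by rw [eq_neg_iff_add_eq_zero, add_comm]; exact hst
      calc A u = t⁻¹ • (t • A u) := by rw [smul_smul, inv_mul_cancel₀ ht, one_smul]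
        _ = _ := by rw [this, smul_neg, smul_smul, neg_smul]
    subst ht
    refine ⟨?_, rfl⟩
    by_contra hs
    have hu0 : u = 0 := by
      rw [zero_smul, add_zero] at hst
      exact (smul_eq_zero.1 hst).resolve_left hs
    exact hu 0 (by simp [hu0])
  apply Submodule.eq_top_of_finrank_eq
  apply le_antisymm (Submodule.finrank_le _)
  rw [h2]
  have h1 : Submodule.span F (Set.range ![u, A u]) ≤ W := by
    rw [Submodule.span_le]
    rintro _ ⟨i, rfl⟩
    fin_cases i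
    · exact hW
    · exact hWs _ hW
  calc 2 = finrank F (Submodule.span F (Set.range ![u, A u])) := by
        rw [finrank_span_eq_card hli]; simp
    _ ≤ _ := Submodule.finrank_mono h1

theorem ns_L01 {M : Matrix (Fin 2) (Fin 2) F} (h : M.det ≠ 0) (h1 : M 0 1 ≠ 0) : NS (L M h) := by
  refine ⟨![0, 1], fun c hc => h1 ?_⟩
  have := congrFun hc 0
  simpa [L_apply, Matrix.mulVec, dotProduct, Fin.sum_univ_two] using this

theorem ns_L10 {M : Matrix (Fin 2) (Fin 2) F} (h : M.det ≠ 0) (h1 : M 1 0 ≠ 0) : NS (L M h) := by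
  refine ⟨![1, 0], fun c hc => h1 ?_⟩
  have := congrFun hc 1
  simpa [L_apply, Matrix.mulVec, dotProduct, Fin.sum_univ_two] using this

/-- non-scalar matrix -/
theorem ns_L {M : Matrix (Fin 2) (Fin 2) F} (h : M.det ≠ 0) (h1 : M 0 0 ≠ M 1 1) :
    NS (L M h) := by
  by_cases h01 : M 0 1 = 0
  · by_cases h10 : M 1 0 = 0
    · refine ⟨![1, 1], fun c hc => h1 ?_⟩
      have e0 := congrFun hc 0
      have e1 := congrFun hc 1
      simp [L_apply, Matrix.mulVec, dotProduct, Fin.sum_univ_two, h01] at e0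
      simp [L_apply, Matrix.mulVec, dotProduct, Fin.sum_univ_two, h10] at e1
      rw [e0, e1]
    · exact ns_L10 h h10
  · exact ns_L01 h h01

theorem cyc_L {M : Matrix (Fin 2) (Fin 2) F} (h : M.det ≠ 0) (hM : NS (L M h)) {t d : F}
    (ht : M 0 0 + M 1 1 = t) (hd : M.det = d) : Cyc (L M h) (qp t d) := by
  have h1 := cyc_of_ns finrank_P2 hM
  have h2 : (L M h).toLinearMap.charpoly = qp t d := by
    rw [L_lin, Matrix.charpoly_toLin', Matrix.charpoly_fin_two, hd, Matrix.trace_fin_two, ht]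
    rfl
  rwa [h2] at h1

/-- the companion matrix -/
def M0 (t d : F) : Matrix (Fin 2) (Fin 2) F := !![0, -d; 1, t]

theorem det_M0 (t d : F) : (M0 t d).det = d := by
  rw [M0, Matrix.det_fin_two_of]; ring

/-- a conjugate of the companion matrix -/
def M1 (t d x z : F) : Matrix (Fin 2) (Fin 2) F := !![x, -(x ^ 2 - t * x + d) / z; z, t - x]

theorem det_M1 (t d x : F) {z : F} (hz : z ≠ 0) : (M1 t d x z).det = d := by
  rw [M1, Matrix.det_fin_two_of]; field_simp; ring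

/-- the product of two conjugates -/
def M2 (t d x z : F) : Matrix (Fin 2) (Fin 2) F :=
  !![-d * z, -d * (t - x); x + t * z, -(x ^ 2 - t * x + d) / z + t * (t - x)]

theorem M0_M1 (t d x z : F) : M0 t d * M1 t d x z = M2 t d x z := by
  rw [M0, M1, M2]
  ext i j
  fin_cases i <;> fin_cases j <;> simp [Matrix.mul_apply, Fin.sum_univ_two]

theorem det_M2 (t d x : F) {z : F} (hz : z ≠ 0) : (M2 t d x z).det = d ^ 2 := by
  rw [← M0_M1, Matrix.det_mul, det_M0, det_M1 t d x hz]; ring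

theorem cyc_M0 {t d : F} (hd : d ≠ 0) :
    Cyc (L (M0 t d) (by rw [det_M0]; exact hd)) (qp t d) :=
  cyc_L _ (ns_L10 _ (by simp [M0])) (by simp [M0]) (det_M0 t d)

theorem cyc_M1 {t d : F} (hd : d ≠ 0) (x : F) {z : F} (hz : z ≠ 0) :
    Cyc (L (M1 t d x z) (by rw [det_M1 t d x hz]; exact hd)) (qp t d) :=
  cyc_L _ (ns_L10 _ (by simpa [M1] using hz)) (by simp [M1]) (det_M1 t d x hz)

/-- products of two conjugates of the companion matrix -/
theorem wp_M2 {t d : F} (hd : d ≠ 0) (x : F) {z : F} (hz : z ≠ 0) :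
    WP (L (M0 t d) (by rw [det_M0]; exact hd)) 2
      (L (M2 t d x z) (by rw [det_M2 t d x hz]; exact pow_ne_zero 2 hd)) := by
  obtain ⟨g, hg⟩ := (cyc_M0 (t := t) hd).conj_of (cyc_M1 hd x hz)
  have h1 := WP.one (L (M0 t d) (by rw [det_M0]; exact hd))
  have h2 := h1.conj g
  rw [← hg] at h2
  have h3 := WP.mul h1 h2
  rwa [L_mul _ _ (M0_M1 t d x z) (by rw [det_M2 t d x hz]; exact pow_ne_zero 2 hd)] at h3

omit [Field F] in
theorem exists_ne₃ [Fintype F] (h4 : 4 ≤ Fintype.card F) (a b c : F) :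
    ∃ x : F, x ≠ a ∧ x ≠ b ∧ x ≠ c := by
  classical
  by_contra hcon
  push Not at hcon
  have h1 : (Finset.univ : Finset F) ⊆ {a, b, c} := by
    intro x _
    simp only [Finset.mem_insert, Finset.mem_singleton]
    by_cases h1 : x = a
    · exact Or.inl h1
    · by_cases h2 : x = b
      · exact Or.inr (Or.inl h2)
      · exact Or.inr (Or.inr (hcon x h1 h2))
  have h2 := Finset.card_le_card h1
  have h3 : ({a, b, c} : Finset F).card ≤ 3 := Finset.card_le_three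
  rw [Finset.card_univ] at h2
  omega

/-- split product with two distinct roots -/
theorem exists_split [Fintype F] (h4 : 4 ≤ Fintype.card F) {t d : F} (hd : d ≠ 0) :
    ∃ (D : P2 F ≃ₗ[F] P2 F) (c e : F), c ≠ e ∧ c * e = d ^ 2 ∧
      WP (L (M0 t d) (by rw [det_M0]; exact hd)) 2 D ∧ Cyc D (qp (c + e) (d ^ 2)) := by
  obtain ⟨c, hc0, hcd, hcd'⟩ := exists_ne₃ h4 (0 : F) d (-d)
  have hz : -c / d ≠ 0 := div_ne_zero (neg_ne_zero.2 hc0) hd
  have h00 : M2 t d (c * t / d) (-c / d) 0 0 = c := by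
    simp only [M2, Matrix.of_apply, Matrix.cons_val_zero]
    field_simp
  have h11 : M2 t d (c * t / d) (-c / d) 1 1 = d ^ 2 / c := by
    simp only [M2, Matrix.of_apply, Matrix.cons_val_one, Matrix.cons_val_fin_one]
    field_simp
    ring
  have hne : c ≠ d ^ 2 / c := by
    intro h
    rw [eq_div_iff hc0] at h
    have : (c - d) * (c + d) = 0 := by linear_combination h
    rcases mul_eq_zero.1 this with h1 | h1
    · exact hcd (by linear_combination h1)
    · exact hcd' (by linear_combination h1)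
  refine ⟨L (M2 t d (c * t / d) (-c / d)) (by rw [det_M2 t d _ hz]; exact pow_ne_zero 2 hd),
    c, d ^ 2 / c, hne, by field_simp, wp_M2 hd _ hz, ?_⟩
  exact cyc_L _ (ns_L _ (by rw [h00, h11]; exact hne)) (by rw [h00, h11]) (det_M2 t d _ hz)

/-- a product with trace different from a given one -/
theorem exists_other [Fintype F] (h4 : 4 ≤ Fintype.card F) {t d : F} (hd : d ≠ 0) (T₁ : F) :
    ∃ (D : P2 F ≃ₗ[F] P2 F) (T : F), T ≠ T₁ ∧
      WP (L (M0 t d) (by rw [det_M0]; exact hd)) 2 D ∧ Cyc D (qp T (d ^ 2)) := by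
  obtain ⟨z, hz0, hz⟩ : ∃ z : F, z ≠ 0 ∧ d * z ^ 2 + (t + T₁) * z + (t + 1 + d) ≠ 0 := by
    classical
    by_contra hcon
    push Not at hcon
    have hp : ∀ z : F, z ≠ 0 → (C d * X ^ 2 + C (t + T₁) * X + C (t + 1 + d) : F[X]).eval z = 0 := by
      intro z hz
      simpa using hcon z hz
    have hdeg : (C d * X ^ 2 + C (t + T₁) * X + C (t + 1 + d) : F[X]).natDegree = 2 :=
      natDegree_quadratic hd
    have hne : (C d * X ^ 2 + C (t + T₁) * X + C (t + 1 + d) : F[X]) ≠ 0 := by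
      intro h
      rw [h] at hdeg
      simp at hdeg
    have h1 : (Finset.univ.erase (0 : F)) ⊆
        (C d * X ^ 2 + C (t + T₁) * X + C (t + 1 + d) : F[X]).roots.toFinset := by
      intro z hz
      rw [Finset.mem_erase] at hz
      rw [Multiset.mem_toFinset, mem_roots hne]
      exact hp z hz.1
    have h2 := (Finset.card_le_card h1).trans ((Multiset.toFinset_card_le _).trans
      (card_roots' _))
    rw [hdeg, Finset.card_erase_of_mem (Finset.mem_univ _), Finset.card_univ] at h2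
    omega
  have h01 : M2 t d (t + 1) z 0 1 ≠ 0 := by
    simp only [M2, Matrix.of_apply, Matrix.cons_val_zero, Matrix.cons_val_one,
      Matrix.cons_val_fin_one]
    rw [show -d * (t - (t + 1)) = d by ring]
    exact hd
  refine ⟨L (M2 t d (t + 1) z) (by rw [det_M2 t d _ hz0]; exact pow_ne_zero 2 hd), _, ?_,
    wp_M2 hd _ hz0, cyc_L _ (ns_L01 _ h01) rfl (det_M2 t d _ hz0)⟩
  intro h
  apply hz
  simp only [M2, Matrix.of_apply, Matrix.cons_val_zero, Matrix.cons_val_one,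
      Matrix.cons_val_fin_one] at h
  field_simp at h
  linear_combination -h

/-- products in the presence of an eigenvalue `l` -/
theorem exists_avoid {l m : F} (hl : l ≠ 0) (hm : m ≠ 0) {z : F} (hz : z ≠ 0)
    (hz' : z ≠ 1 - l / m) :
    ∃ (D : P2 F ≃ₗ[F] P2 F), 
      WP (L (M0 (l + m) (l * m)) (by rw [det_M0]; exact mul_ne_zero hl hm)) 2 D ∧
      Cyc D (qp (m ^ 2 + l * m * (1 - z)) ((l * m) ^ 2)) ∧
      (qp (m ^ 2 + l * m * (1 - z)) ((l * m) ^ 2)).eval (l ^ 2) ≠ 0 := by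
  have hd : l * m ≠ 0 := mul_ne_zero hl hm
  have h01 : M2 (l + m) (l * m) l z 0 1 ≠ 0 := by
    simp only [M2, Matrix.of_apply, Matrix.cons_val_zero, Matrix.cons_val_one,
      Matrix.cons_val_fin_one]
    rw [show -(l * m) * (l + m - l) = -(l * m ^ 2) by ring]
    exact neg_ne_zero.2 (mul_ne_zero hl (pow_ne_zero 2 hm))
  refine ⟨L (M2 (l + m) (l * m) l z) (by rw [det_M2 _ _ _ hz]; exact pow_ne_zero 2 hd),
    wp_M2 hd _ hz, cyc_L _ (ns_L01 _ h01) ?_ (det_M2 _ _ _ hz), ?_⟩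
  · simp only [M2, Matrix.of_apply, Matrix.cons_val_zero, Matrix.cons_val_one,
      Matrix.cons_val_fin_one]
    field_simp
    ring
  · rw [qp_eval]
    intro h
    apply hz'
    have h1 : l ^ 3 * (m * (z - 1) + l) = 0 := by linear_combination h
    have h2 : m * (z - 1) + l = 0 := (mul_eq_zero.1 h1).resolve_left (pow_ne_zero 3 hl)
    field_simp
    linear_combination h2

/-! ### general facts on block sums -/
section General
variable {V W : Type u} [AddCommGroup V] [Module F V] [FiniteDimensional F V]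
  [AddCommGroup W] [Module F W] [FiniteDimensional F W]

theorem det_bs (A : V ≃ₗ[F] V) (B : W ≃ₗ[F] W) :
    LinearEquiv.det (bs A B) = LinearEquiv.det A * LinearEquiv.det B := by
  ext
  rw [Units.val_mul, LinearEquiv.coe_det, LinearEquiv.coe_det, LinearEquiv.coe_det,
    ← LinearMap.det_prodMap]
  rfl

theorem bs_mul (A A' : V ≃ₗ[F] V) (B B' : W ≃ₗ[F] W) :
    bs A B * bs A' B' = bs (A * A') (B * B') := rfl

theorem bs_inv (A : V ≃ₗ[F] V) (B : W ≃ₗ[F] W) : (bs A B)⁻¹ = bs A⁻¹ B⁻¹ := rfl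

theorem bs_one : bs (1 : V ≃ₗ[F] V) (1 : W ≃ₗ[F] W) = 1 := rfl

theorem full_bs {A : V ≃ₗ[F] V} (h : Full A) (B : W ≃ₗ[F] W) : Full (bs A B) := by
  intro γ
  obtain ⟨g, hg, hgA⟩ := h γ
  refine ⟨bs g 1, ?_, ?_⟩
  · rw [det_bs, hg, map_one, mul_one]
  · rw [bs_mul, bs_mul, hgA, one_mul, mul_one]

/-- irreducible quadratic: all determinants -/
theorem full_of_irr [Finite F] {A : V ≃ₗ[F] V} {f : F[X]} (hA : Cyc A f) (hf : Irreducible f) :
    Full A := by
  obtain ⟨hm, hd, ⟨v, hv⟩, h0⟩ := hA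
  intro γ
  obtain ⟨g, hg⟩ := Cfsg.Agent.Lib.CyclicComm.exists_det_aeval hv hm monic_one hf isCoprime_one_right
    (by rw [mul_one]; exact hd) (by rw [mul_one]; exact h0) (γ : F)
  refine ⟨LinearMap.equivOfDetNeZero (aeval A.toLinearMap g) (by rw [hg]; exact γ.ne_zero), ?_, ?_⟩
  · ext
    rw [LinearEquiv.coe_det]
    refine Eq.trans ?_ hg
    congr 1
  · ext1 x
    rw [LinearEquiv.mul_apply, LinearEquiv.mul_apply]
    change (aeval A.toLinearMap g) (A x) = A ((aeval A.toLinearMap g) x)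
    have h := congrArg (aeval A.toLinearMap) (mul_comm g X)
    rw [map_mul, map_mul, aeval_X] at h
    exact LinearMap.congr_fun h x

/-- quadratic polynomials over `F`: either a square or all determinants. -/
theorem full_or [Finite F] {A : V ≃ₗ[F] V} {t d : F} (hA : Cyc A (qp t d)) :
    (∃ a, t = a + a ∧ d = a * a) ∨ Full A := by
  by_cases hr : ∃ a, (qp t d).IsRoot a
  · obtain ⟨a, ha⟩ := hr
    rw [IsRoot, qp_eval] at ha
    by_cases hab : t - a = a
    · left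
      have ht : t = a + a := by linear_combination hab
      exact ⟨a, ht, by rw [ht] at ha; linear_combination ha⟩
    · right
      refine Full.of_sr hA ⟨a, X - C (t - a), ?_, ?_⟩
      · have hd : d = a * (t - a) := by linear_combination ha
        rw [qp, hd]
        simp only [map_mul, map_sub]
        ring
      · simp only [eval_sub, eval_X, eval_C]
        intro h
        exact hab (by linear_combination -h)
  · right
    apply full_of_irr hA
    refine irreducible_of_degree_le_three_of_not_isRoot ?_ ?_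
    · rw [qp_natDegree]; decide
    · push Not at hr
      exact hr

theorem ns_inv {A : V ≃ₗ[F] V} (h : NS A) : NS A⁻¹ := by
  obtain ⟨u, hu⟩ := h
  refine ⟨A u, fun c hc => ?_⟩
  have h1 : u = c • A u := by
    rw [← hc]
    exact (A.symm_apply_apply u).symm
  have hu0 : u ≠ 0 := by rintro rfl; exact hu 0 (by simp)
  have hc0 : c ≠ 0 := by rintro rfl; exact hu0 (by rw [h1, zero_smul])
  apply hu c⁻¹
  conv_rhs => rw [h1, smul_smul, inv_mul_cancel₀ hc0, one_smul]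

theorem cyc_inv (h2 : finrank F V = 2) {A : V ≃ₗ[F] V} {t : F} (h : Cyc A (qp t 1)) :
    Cyc A⁻¹ (qp t 1) := by
  have h1 := cyc_of_ns h2 (ns_inv (Cyc.ns h h2.ge))
  refine ⟨h.1, h.2.1, h1.2.2.1, ?_⟩
  have h0 := h.2.2.2
  ext1 x
  have h3 := LinearMap.congr_fun h0 (A.symm (A.symm x))
  have e1 : (aeval A.toLinearMap (qp t 1)) (A.symm (A.symm x)) =
      x - t • A.symm x + A.symm (A.symm x) := by
    simp [qp, pow_two]
  have e2 : (aeval (A⁻¹).toLinearMap (qp t 1)) x =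
      A.symm (A.symm x) - t • A.symm x + x := by
    simp [qp, pow_two]
  rw [e2, LinearMap.zero_apply]
  rw [e1, LinearMap.zero_apply] at h3
  rw [← h3]
  abel

/-- weak products only depend on the conjugacy class. -/
theorem ip_base {A B : V ≃ₗ[F] V} (g : V ≃ₗ[F] V) (hB : B = g * A * g⁻¹) :
    ∀ {cs : List Fˣ} {M : V ≃ₗ[F] V}, IP A cs M →
      IP B (cs.map (· * (LinearEquiv.det g)⁻¹)) M := by
  intro cs
  induction cs with
  | nil => intro M h; exact h
  | cons c cs ih =>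
    rintro M ⟨k, P, hk, hP, hM⟩
    refine ⟨k * g⁻¹, P, ?_, ih hP, ?_⟩
    · rw [map_mul, hk, map_inv]
    · rw [hM, hB]; group

theorem wp_base {A B : V ≃ₗ[F] V} (g : V ≃ₗ[F] V) (hB : B = g * A * g⁻¹) {k : ℕ}
    {M : V ≃ₗ[F] V} (h : WP A k M) : WP B k M := by
  obtain ⟨cs, hcs, h⟩ := h
  exact ⟨_, by rw [List.length_map, hcs], ip_base g hB h⟩

theorem cyc_of_sim {A : V ≃ₗ[F] V} {B : W ≃ₗ[F] W} (e : V ≃ₗ[F] W)
    (he : ∀ x, e (A x) = B (e x)) {p : F[X]} (h : Cyc B p) : Cyc A p := by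
  obtain ⟨hm, hd, ⟨v, hv⟩, h0⟩ := h
  have he' : ∀ x, e.symm (B.toLinearMap x) = A.toLinearMap (e.symm x) := by
    intro x
    apply e.injective
    rw [e.apply_symm_apply]
    change B x = e (A (e.symm x))
    rw [he, e.apply_symm_apply]
  refine ⟨hm, by rw [hd, e.finrank_eq], ⟨e.symm v,
    Cfsg.Agent.Lib.CyclicComm.cycVec_conj e.symm he' hv⟩, ?_⟩
  ext1 x
  have := Cfsg.Agent.Lib.CyclicComm.aeval_conj e.symm he' p (e x)
  rw [h0, LinearMap.zero_apply, map_zero, e.symm_apply_apply] at this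
  exact this.symm

theorem h_of_sim {A : V ≃ₗ[F] V} {B : W ≃ₗ[F] W} (e : V ≃ₗ[F] W)
    (he : ∀ x, e (A x) = B (e x)) (h : H B) : H A := by
  obtain ⟨D, p, hD, hp, hS, hS'⟩ := h
  have tr : ∀ D : W ≃ₗ[F] W, SP B (finrank F W / 2) D →
      SP A (finrank F V / 2) ((e.trans D).trans e.symm) := by
    intro D h
    rw [SP.of_sim e he, e.finrank_eq]
    have : (e.symm.trans ((e.trans D).trans e.symm)).trans e = D := by
      ext1 x; simp
    rw [this]
    exact h
  refine ⟨(e.trans D).trans e.symm, p, cyc_of_sim e (by intro x; simp) hD, hp, tr D hS, ?_⟩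
  intro hev hdet
  have h1 : ((e.trans D).trans e.symm)⁻¹ = (e.trans D⁻¹).trans e.symm := rfl
  rw [h1]
  apply tr
  apply hS'
  · rwa [← e.finrank_eq]
  · rw [← hdet]
    have h2 : B = (e.symm.trans A).trans e := by
      ext1 x; simp [he]
    rw [h2]
    ext
    rw [LinearEquiv.coe_det, LinearEquiv.coe_det]
    exact LinearMap.det_conj A.toLinearMap e

theorem ip_bs2 {A M : V ≃ₗ[F] V} {B N : W ≃ₗ[F] W} {c₁ c₂ d₁ d₂ : Fˣ}
    (h : IP A [c₁, c₂] M) (h' : IP B [d₁, d₂] N) :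
    IP (bs A B) [c₁ * d₁, c₂ * d₂] (bs M N) := by
  obtain ⟨g, P, hg, ⟨g', P', hg', hP', hP⟩, hM⟩ := h
  obtain ⟨k, Q, hk, ⟨k', Q', hk', hQ', hQ⟩, hN⟩ := h'
  have hP'' : P' = 1 := hP'
  have hQ'' : Q' = 1 := hQ'
  refine ⟨bs g k, bs P Q, ?_, ⟨bs g' k', 1, ?_, rfl, ?_⟩, ?_⟩
  · rw [det_bs, hg, hk]
  · rw [det_bs, hg', hk']
  · rw [hP, hQ, hP'', hQ'']
    rfl
  · rw [hM, hN]
    rfl

end General

/-! ### the case `f = (X - a)²` -/

/-- Jordan block with a parameter -/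
def J (a x : F) : Matrix (Fin 2) (Fin 2) F := !![a, x; 0, a]

theorem det_J (a x : F) : (J a x).det = a ^ 2 := by
  rw [J, Matrix.det_fin_two_of]; ring

/-- the diagonal matrix `diag (x r, r)` -/
def Dg (x r : F) : Matrix (Fin 2) (Fin 2) F := !![x * r, 0; 0, r]

theorem det_Dg (x r : F) : (Dg x r).det = x * r ^ 2 := by
  rw [Dg, Matrix.det_fin_two_of]; ring

theorem conj_J {a : F} (ha : a ≠ 0) {x r : F} (hx : x ≠ 0) (hr : r ≠ 0) :
    L (Dg x r) (by rw [det_Dg]; exact mul_ne_zero hx (pow_ne_zero 2 hr)) *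
      L (J a 1) (by rw [det_J]; exact pow_ne_zero 2 ha) *
      (L (Dg x r) (by rw [det_Dg]; exact mul_ne_zero hx (pow_ne_zero 2 hr)))⁻¹ =
      L (J a x) (by rw [det_J]; exact pow_ne_zero 2 ha) := by
  rw [mul_inv_eq_iff_eq_mul]
  have h : Dg x r * J a 1 = J a x * Dg x r := by
    rw [Dg, J, J]
    ext i j
    fin_cases i <;> fin_cases j <;> simp [Matrix.mul_apply, Fin.sum_univ_two] <;> ring
  have hdet : (Dg x r * J a 1).det ≠ 0 := by
    rw [Matrix.det_mul, det_Dg, det_J]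
    exact mul_ne_zero (mul_ne_zero hx (pow_ne_zero 2 hr)) (pow_ne_zero 2 ha)
  rw [L_mul _ _ rfl hdet, L_mul _ _ h.symm hdet]

theorem ip_J {a : F} (ha : a ≠ 0) {x y r s : F} (hx : x ≠ 0) (hy : y ≠ 0) (hr : r ≠ 0)
    (hs : s ≠ 0) (hxy : x + y = 1) {c₁ c₂ : Fˣ} (h1 : (c₁ : F) = x * r ^ 2)
    (h2 : (c₂ : F) = y * s ^ 2) :
    IP (L (J a 1) (by rw [det_J]; exact pow_ne_zero 2 ha)) [c₁, c₂]
      (L (J (a ^ 2) a) (by rw [det_J]; exact pow_ne_zero 2 (pow_ne_zero 2 ha))) := by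
  refine ⟨L (Dg x r) (by rw [det_Dg]; exact mul_ne_zero hx (pow_ne_zero 2 hr)), _, ?_,
    ⟨L (Dg y s) (by rw [det_Dg]; exact mul_ne_zero hy (pow_ne_zero 2 hs)), 1, ?_, rfl, rfl⟩, ?_⟩
  · rw [det_L]
    ext
    rw [Units.val_mk0, h1, det_Dg]
  · rw [det_L]
    ext
    rw [Units.val_mk0, h2, det_Dg]
  · rw [mul_one, conj_J ha hx hr, conj_J ha hy hs]
    refine (L_mul _ _ ?_ _).symm
    rw [J, J, J]
    ext i j
    fin_cases i <;> fin_cases j <;> simp [Matrix.mul_apply, Fin.sum_univ_two, pow_two]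
    linear_combination a * hxy

theorem cyc_J {a : F} (ha : a ≠ 0) {x : F} (hx : x ≠ 0) :
    Cyc (L (J a x) (by rw [det_J]; exact pow_ne_zero 2 ha)) (qp (a + a) (a ^ 2)) :=
  cyc_L _ (ns_L01 _ (by simpa [J] using hx)) (by simp [J]) (det_J a x)

/-- the strong statement for two Jordan blocks. -/
theorem sp_J [Fintype F] (h4 : 4 ≤ Fintype.card F) {a : F} (ha : a ≠ 0)
    {D₂ : P2 F ≃ₗ[F] P2 F} (hfull : Full D₂)
    (hD₂ : WP (L (J a 1) (by rw [det_J]; exact pow_ne_zero 2 ha)) 2 D₂) :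
    SP (bs (L (J a 1) (by rw [det_J]; exact pow_ne_zero 2 ha))
      (L (J a 1) (by rw [det_J]; exact pow_ne_zero 2 ha))) 2
      (bs (L (J (a ^ 2) a) (by rw [det_J]; exact pow_ne_zero 2 (pow_ne_zero 2 ha))) D₂) := by
  intro cs hcs
  obtain ⟨us, hus, hIP⟩ := hD₂
  obtain ⟨c₁, c₂, rfl⟩ := List.length_eq_two.1 hcs
  obtain ⟨u₁, u₂, rfl⟩ := List.length_eq_two.1 hus
  obtain ⟨s, hs0, hs⟩ : ∃ s : F, s ≠ 0 ∧ (c₁ * u₂ / (c₂ * u₁) : F) * s ^ 2 + 1 ≠ 0 := by
    by_cases h : (c₁ * u₂ / (c₂ * u₁) : F) = -1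
    · obtain ⟨s, h0, h1, h2⟩ := exists_ne₃ h4 (0 : F) 1 (-1)
      refine ⟨s, h0, ?_⟩
      rw [h]
      intro h3
      have : (s - 1) * (s + 1) = 0 := by linear_combination -h3
      rcases mul_eq_zero.1 this with h5 | h5
      · exact h1 (by linear_combination h5)
      · exact h2 (by linear_combination h5)
    · exact ⟨1, one_ne_zero, by intro h3; exact h (by linear_combination h3)⟩
  have hc₁ : (c₁ : F) ≠ 0 := c₁.ne_zero
  have hc₂ : (c₂ : F) ≠ 0 := c₂.ne_zero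
  have hu₁ : (u₁ : F) ≠ 0 := u₁.ne_zero
  have hu₂ : (u₂ : F) ≠ 0 := u₂.ne_zero
  obtain ⟨τ, hτ⟩ : ∃ τ : F, τ = (c₁ * u₂ / (c₂ * u₁) : F) * s ^ 2 := ⟨_, rfl⟩
  rw [← hτ] at hs
  have hτ0 : τ ≠ 0 := by
    rw [hτ]
    exact mul_ne_zero (div_ne_zero (mul_ne_zero hc₁ hu₂) (mul_ne_zero hc₂ hu₁))
      (pow_ne_zero 2 hs0)
  have hx : τ / (τ + 1) ≠ 0 := div_ne_zero hτ0 hs
  have hy : 1 / (τ + 1) ≠ 0 := div_ne_zero one_ne_zero hs
  have hxy : τ / (τ + 1) + 1 / (τ + 1) = 1 := by field_simp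
  have hys : 1 / (τ + 1) * s ^ 2 ≠ 0 := mul_ne_zero hy (pow_ne_zero 2 hs0)
  obtain ⟨h, hdet, hcomm⟩ := hfull (c₁ / (Units.mk0 _ hx * u₁))
  have h1 := IP.conj hIP h
  rw [hcomm, mul_inv_cancel_right, hdet] at h1
  have h2 := ip_J ha hx hy (one_ne_zero (α := F)) hs0 hxy (c₁ := Units.mk0 _ hx)
    (c₂ := Units.mk0 _ hys) (by simp) (by simp)
  have h3 := ip_bs2 h2 h1
  have e1 : Units.mk0 _ hx * (c₁ / (Units.mk0 _ hx * u₁) * u₁) = c₁ := by
    rw [div_mul_eq_mul_div, mul_div_assoc', mul_comm c₁ u₁, ← mul_assoc, mul_div_cancel_left]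
  have e2 : Units.mk0 _ hys * (c₁ / (Units.mk0 _ hx * u₁) * u₂) = c₂ := by
    ext
    simp only [Units.val_mul, Units.val_div_eq_div_val, Units.val_mk0]
    have hτ' : τ * (c₂ * u₁) = c₁ * u₂ * s ^ 2 := by rw [hτ]; field_simp
    field_simp
    linear_combination -hτ'
  rw [e1, e2] at h3
  exact h3

/-! ### the quadratic factors are coprime -/

theorem qp_coprime {T₁ T₂ m : F} (h : T₁ ≠ T₂) (hm : m ≠ 0) : IsCoprime (qp T₁ m) (qp T₂ m) := by
  have h1 : T₂ - T₁ ≠ 0 := sub_ne_zero.2 h.symm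
  -- `qp T₁ m - qp T₂ m = (T₂ - T₁) X`, and `m = qp - X (X - T)`
  refine ⟨C m⁻¹ * (1 - C (T₂ - T₁)⁻¹ * (X - C T₁)), C m⁻¹ * (C (T₂ - T₁)⁻¹ * (X - C T₁)), ?_⟩
  have e1 : C m⁻¹ * C m = (1 : F[X]) := by rw [← C_mul, inv_mul_cancel₀ hm, C_1]
  have e2 : C (T₂ - T₁)⁻¹ * (C T₂ - C T₁) = (1 : F[X]) := by
    rw [← C_sub, ← C_mul, inv_mul_cancel₀ h1, C_1]
  simp only [qp]
  linear_combination (1 - (X - C T₁) * 0) * e1 - C m⁻¹ * X * (X - C T₁) * e2

theorem qp_split (c e : F) : qp (c + e) (c * e) = (X - C e) * (X - C c) := by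
  simp only [qp, map_add, map_mul]; ring

theorem sr_prod {c e T : F} (hce : c ≠ e) (hc : c ≠ 0) (hT : c + e ≠ T) :
    SR (qp (c + e) (c * e) * qp T (c * e)) := by
  refine ⟨c, (X - C e) * qp T (c * e), ?_, ?_⟩
  · rw [qp_split]; ring
  · rw [eval_mul, qp_eval, eval_sub, eval_X, eval_C]
    refine mul_ne_zero (sub_ne_zero.2 hce) ?_
    have : c ^ 2 - T * c + c * e = c * (c + e - T) := by ring
    rw [this]
    exact mul_ne_zero hc (sub_ne_zero.2 hT)

theorem sr_split {c e : F} (hce : c ≠ e) : SR (qp (c + e) (c * e)) := by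
  refine ⟨c, X - C e, qp_split c e, ?_⟩
  rw [eval_sub, eval_X, eval_C]
  exact sub_ne_zero.2 hce

/-! ### assembly -/
section Assembly
variable {E : Type u} [AddCommGroup E] [Module F E] [FiniteDimensional F E]

theorem wp_sc (l : Fˣ) : WP (sc E l) 2 (sc E l * sc E l) :=
  WP.mul (WP.one (sc E l)) (WP.one (sc E l))

theorem cyc_triv (hE : finrank F E = 0) (A : E ≃ₗ[F] E) : Cyc A (1 : F[X]) := by
  have : Subsingleton E := finrank_zero_iff.1 hE
  refine ⟨monic_one, by rw [natDegree_one, hE], ⟨0, ?_⟩, ?_⟩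
  · intro W _ _
    exact Subsingleton.elim _ _
  · ext1 x
    exact Subsingleton.elim _ _

theorem cyc_line (hE : finrank F E = 1) (l : Fˣ) :
    Cyc (sc E l * sc E l) (X - C ((l : F) ^ 2)) := by
  have hnt : Nontrivial E := Module.nontrivial_of_finrank_pos (R := F) (by omega)
  obtain ⟨v, hv⟩ := exists_ne (0 : E)
  refine ⟨monic_X_sub_C _, by rw [natDegree_X_sub_C, hE], ⟨v, ?_⟩, ?_⟩
  · intro W hW _
    apply Submodule.eq_top_of_finrank_eq
    apply le_antisymm (Submodule.finrank_le _)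
    rw [hE, Nat.one_le_iff_ne_zero]
    intro h0
    rw [Submodule.finrank_eq_zero] at h0
    rw [h0] at hW
    exact hv ((Submodule.mem_bot F).1 hW)
  · ext1 x
    have e1 : ((sc E l * sc E l : E ≃ₗ[F] E)).toLinearMap x = ((l : F) ^ 2) • x := by
      change (l : F) • ((l : F) • x) = _
      rw [smul_smul, pow_two]
    rw [map_sub, aeval_X, aeval_C, LinearMap.sub_apply, e1, Module.algebraMap_end_apply, sub_self]
    rfl

theorem assemble0 (hE : finrank F E = 0) (l : Fˣ) {A D₁ D₂ : P2 F ≃ₗ[F] P2 F} {d T₁ T₂ : F}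
    (hd : d ≠ 0) (hdet : (LinearEquiv.det A : F) = d)
    (hT : T₁ ≠ T₂) (h1 : Cyc D₁ (qp T₁ (d ^ 2))) (h2 : Cyc D₂ (qp T₂ (d ^ 2)))
    (hSR : SR (qp T₁ (d ^ 2) * qp T₂ (d ^ 2)))
    (hS : SP (bs A A) 2 (bs D₁ D₂)) : H (bs (sc E l) (bs A A)) := by
  have hm : d ^ 2 ≠ 0 := pow_ne_zero 2 hd
  have hcyc : Cyc (bs (sc E l * sc E l) (bs D₁ D₂)) (1 * (qp T₁ (d ^ 2) * qp T₂ (d ^ 2))) :=
    Cyc.bs (cyc_triv hE _) (Cyc.bs h1 h2 (qp_coprime hT hm)) isCoprime_one_left
  have hfin : finrank F (E × P2 F × P2 F) = 4 := by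
    rw [finrank_prod, finrank_prod, finrank_P2, hE]
  have hSP : SP (bs (sc E l) (bs A A)) 2 (bs (sc E l * sc E l) (bs D₁ D₂)) :=
    WP.bs_sp (wp_sc l) hS
  refine ⟨_, _, hcyc, ?_, ?_, ?_⟩
  · rwa [one_mul]
  · rw [hfin]
    exact hSP
  · rw [hfin]
    intro _ hdet'
    have hd2 : d ^ 2 = 1 := by
      have h3 := congrArg (fun u : Fˣ => (u : F)) hdet'
      simp only [det_bs, Units.val_mul, Units.val_one, hdet] at h3
      have h4 : (LinearEquiv.det (sc E l) : F) = 1 := by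
        rw [LinearEquiv.coe_det]
        exact LinearMap.det_eq_one_of_finrank_eq_zero hE _
      rw [h4, one_mul] at h3
      rw [pow_two]; exact h3
    rw [hd2] at h1 h2
    have hcyc' : Cyc (bs (sc E l * sc E l) (bs D₁ D₂))⁻¹
        (1 * (qp T₁ (d ^ 2) * qp T₂ (d ^ 2))) := by
      rw [hd2, bs_inv, bs_inv]
      exact Cyc.bs (cyc_triv hE _) (Cyc.bs (cyc_inv finrank_P2 h1) (cyc_inv finrank_P2 h2)
        (qp_coprime hT one_ne_zero)) isCoprime_one_left
    obtain ⟨g, hg⟩ := Cyc.conj_of hcyc hcyc'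
    rw [hg]
    exact hSP.conj g

theorem coprime_line {a : F} {q : F[X]} (h : q.eval a ≠ 0) : IsCoprime (X - C a) q := by
  rw [(irreducible_X_sub_C a).coprime_iff_not_dvd, dvd_iff_isRoot]
  exact h

theorem assemble1 (hE : finrank F E = 1) (l : Fˣ) {A D₁ D₂ : P2 F ≃ₗ[F] P2 F} {m T₁ T₂ : F}
    (hm : m ≠ 0) (hT : T₁ ≠ T₂) (h1 : Cyc D₁ (qp T₁ m)) (h2 : Cyc D₂ (qp T₂ m))
    (e1 : (qp T₁ m).eval ((l : F) ^ 2) ≠ 0) (e2 : (qp T₂ m).eval ((l : F) ^ 2) ≠ 0)
    (w1 : WP A 2 D₁) (w2 : WP A 2 D₂) : H (bs (sc E l) (bs A A)) := by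
  have he : (qp T₁ m * qp T₂ m).eval ((l : F) ^ 2) ≠ 0 := by
    rw [eval_mul]; exact mul_ne_zero e1 e2
  have hcyc : Cyc (bs (sc E l * sc E l) (bs D₁ D₂))
      ((X - C ((l : F) ^ 2)) * (qp T₁ m * qp T₂ m)) :=
    Cyc.bs (cyc_line hE l) (Cyc.bs h1 h2 (qp_coprime hT hm)) (coprime_line he)
  have hfin : finrank F (E × P2 F × P2 F) = 5 := by
    rw [finrank_prod, finrank_prod, finrank_P2, hE]
  refine ⟨_, _, hcyc, ?_, ?_, ?_⟩
  · exact ⟨_, _, mul_comm _ _, he⟩
  · rw [hfin]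
    exact WP.sp_of_full (Full.bs_sc hE.ge l _) (WP.bs (wp_sc l) (WP.bs w1 w2))
  · rw [hfin]
    intro h
    exact absurd h (by decide)

end Assembly

theorem quad {f : F[X]} (hm : f.Monic) (hd : f.natDegree = 2) :
    f = qp (-f.coeff 1) (f.coeff 0) := by
  have h1 := eq_quadratic_of_degree_le_two (degree_le_of_natDegree_le hd.le)
  have h2 : f.coeff 2 = 1 := by rw [← hd]; exact hm
  rw [h2] at h1
  rw [qp_eq, neg_neg]
  exact h1

/-- **Piece Q01.** -/
theorem Q01 [Fintype F] (h4 : 4 ≤ Fintype.card F) {E U U' : Type u}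
    [AddCommGroup E] [Module F E] [FiniteDimensional F E]
    [AddCommGroup U] [Module F U] [FiniteDimensional F U]
    [AddCommGroup U'] [Module F U'] [FiniteDimensional F U'] (l : Fˣ) {C : U ≃ₗ[F] U}
    {C' : U' ≃ₗ[F] U'} {f : F[X]} (hU : finrank F U = 2) (hU' : finrank F U' = 2)
    (hC : Cyc C f) (hC' : Cyc C' f) (hE : finrank F E ≤ 1)
    (hf : 1 ≤ finrank F E → f.eval (l : F) = 0) : H (bs (sc E l) (bs C C')) := by
  obtain ⟨t, d, rfl⟩ : ∃ t d : F, f = qp t d := ⟨_, _, quad hC.1 (by rw [hC.2.1, hU])⟩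
  have hd : d ≠ 0 := by
    have h := Cyc.det hC
    rw [hU] at h
    intro h0
    rw [h0] at h
    have h1 : (qp t (0 : F)).coeff 0 = 0 := by
      rw [coeff_zero_eq_eval_zero, qp_eval]; ring
    rw [h1, mul_zero] at h
    exact (LinearEquiv.det C).ne_zero h
  -- transfer to a model
  have tr : ∀ A : P2 F ≃ₗ[F] P2 F, Cyc A (qp t d) → H (bs (sc E l) (bs A A)) →
      H (bs (sc E l) (bs C C')) := by
    intro A hA hH
    obtain ⟨e1, he1⟩ := Cyc.sim hC hA
    obtain ⟨e2, he2⟩ := Cyc.sim hC' hA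
    refine h_of_sim ((LinearEquiv.refl F E).prodCongr (e1.prodCongr e2)) ?_ hH
    rintro ⟨x, y, z⟩
    simp [bs, he1, he2]
  rcases Nat.eq_zero_or_pos (finrank F E) with hE0 | hE1
  · rcases full_or (cyc_M0 (t := t) hd) with ⟨a, hta, hda⟩ | hfull
    · have ha : a ≠ 0 := by rintro rfl; exact hd (by rw [hda, zero_mul])
      rw [← pow_two] at hda
      subst hta hda
      refine tr _ (cyc_J ha one_ne_zero) ?_
      obtain ⟨D₂, c, e, hce, hced, hw, hcy⟩ := exists_split h4 (t := a + a) hd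
      obtain ⟨g, hg⟩ := Cyc.conj_of (cyc_M0 hd) (cyc_J ha one_ne_zero)
      have hw' := wp_base g hg hw
      have hfull : Full D₂ := Full.of_sr hcy (by rw [← hced]; exact sr_split hce)
      have ha2 : a ^ 2 ≠ 0 := pow_ne_zero 2 ha
      have hT : a ^ 2 + a ^ 2 ≠ c + e := by
        intro h
        apply hce
        have h1 : (c - e) ^ 2 = 0 := by linear_combination (-(a ^ 2 + a ^ 2) - (c + e)) * h - 4 * hced
        exact sub_eq_zero.1 (pow_eq_zero_iff (two_ne_zero) |>.1 h1)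
      refine assemble0 hE0 l hd (by rw [det_L, Units.val_mk0, det_J]) hT (cyc_J ha2 ha) hcy ?_
        (sp_J h4 ha hfull hw')
      rw [mul_comm, ← hced]
      exact sr_prod hce (left_ne_zero_of_mul (by rw [hced]; exact pow_ne_zero 2 ha2)) hT.symm
    · refine tr _ (cyc_M0 hd) ?_
      obtain ⟨D₁, c, e, hce, hced, hw, hcy⟩ := exists_split h4 (t := t) hd
      obtain ⟨D₂, T, hT, hw', hcy'⟩ := exists_other h4 (t := t) hd (c + e)
      refine assemble0 hE0 l hd (by rw [det_L, Units.val_mk0, det_M0]) hT.symm hcy hcy' ?_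
        (WP.sp_of_full (full_bs hfull _) (WP.bs hw hw'))
      rw [← hced]
      exact sr_prod hce (left_ne_zero_of_mul (by rw [hced]; exact pow_ne_zero 2 hd)) hT.symm
  · have hE1' : finrank F E = 1 := le_antisymm hE hE1
    have hl := hf hE1
    rw [qp_eval] at hl
    obtain ⟨m, rfl⟩ : ∃ m, t = l + m := ⟨t - l, by ring⟩
    have hdl : d = l * m := by linear_combination hl
    subst hdl
    have hm : m ≠ 0 := right_ne_zero_of_mul hd
    refine tr _ (cyc_M0 hd) ?_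
    obtain ⟨z₁, hz₁, hz₁', -⟩ := exists_ne₃ h4 (0 : F) (1 - l / m) (1 - l / m)
    obtain ⟨z₂, hz₂, hz₂', hz⟩ := exists_ne₃ h4 (0 : F) (1 - l / m) z₁
    obtain ⟨D₁, w1, c1, e1⟩ := exists_avoid l.ne_zero hm hz₁ hz₁'
    obtain ⟨D₂, w2, c2, e2⟩ := exists_avoid l.ne_zero hm hz₂ hz₂'
    refine assemble1 hE1' l (pow_ne_zero 2 hd) ?_ c1 c2 e1 e2 w1 w2
    intro h
    apply hz
    have h3 : (l : F) * m * (z₂ - z₁) = 0 := by linear_combination h
    have h5 := (mul_eq_zero.1 h3).resolve_left hd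
    linear_combination h5

end Cfsg.Agent.Lib.CovQ01
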