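import Mathlib
import Cfsg.Agent.Lib.CovBas3
import Cfsg.Agent.Lib.CovHG
import Cfsg.Agent.Lib.CovSTAR

set_option autoImplicit false

/-!
Piece Q2 of S2483 (two quadratic blocks plus a scalar block of dimension `≥ 2`), helper69.
-/

namespace Cfsg.Agent.Lib.CovQ2

open Module Polynomial Cfsg.Agent.Lib.CyclicProd Cfsg.Agent.Lib.CovDefs

universe u

variable {F : Type u} [Field F]

/-! ### polynomials -/

theorem exists_rootless [Fintype F] {e : ℕ} (he : 1 ≤ e) {b : F} (hb : b ≠ 0) :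
    ∃ v : F, ∀ x : F, x ^ e + v * x + b ≠ 0 := by
  classical
  by_contra hcon
  push Not at hcon
  choose g hg using hcon
  have hg0 : ∀ v, g v ≠ 0 := by
    intro v h0
    have := hg v
    rw [h0, zero_pow (by omega), mul_zero, zero_add, zero_add] at this
    exact hb this
  have hinj : Function.Injective g := by
    intro v v' hv
    have h1 := hg v
    have h2 := hg v'
    rw [← hv] at h2
    have h3 : v * g v = v' * g v := by linear_combination h1 - h2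
    exact mul_right_cancel₀ (hg0 v) h3
  obtain ⟨v, hv⟩ := (Finite.injective_iff_surjective.1 hinj) 0
  exact hg0 v hv

/-- `X^e + v X + b` -/
noncomputable def hp (e : ℕ) (v b : F) : F[X] := X ^ e + (C v * X + C b)

theorem degree_lin (v b : F) : (C v * X + C b : F[X]).degree ≤ 1 := degree_linear_le

theorem hp_monic {e : ℕ} (he : 2 ≤ e) (v b : F) : (hp e v b).Monic := by
  apply monic_X_pow_add
  exact lt_of_le_of_lt (degree_lin v b) (by exact_mod_cast he)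

theorem hp_natDegree {e : ℕ} (he : 2 ≤ e) (v b : F) : (hp e v b).natDegree = e := by
  apply natDegree_eq_of_degree_eq_some
  unfold hp
  rw [degree_add_eq_left_of_degree_lt, degree_X_pow]
  rw [degree_X_pow]
  exact lt_of_le_of_lt (degree_lin v b) (by exact_mod_cast he)

theorem hp_eval (e : ℕ) (v b x : F) : (hp e v b).eval x = x ^ e + v * x + b := by
  unfold hp
  simp only [eval_add, eval_pow, eval_X, eval_mul, eval_C]
  ring

theorem hp_coeff {e : ℕ} (he : 2 ≤ e) (v b : F) : (hp e v b).coeff 0 = b := by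
  rw [coeff_zero_eq_eval_zero, hp_eval, zero_pow (by omega)]
  ring

theorem unit_cop {a b : F[X]} (h : IsUnit a) : IsCoprime a b := by
  obtain ⟨w, rfl⟩ := h
  exact ⟨↑w⁻¹, 0, by simp⟩

theorem coprime_lin {h : F[X]} (hr : ∀ x, h.eval x ≠ 0) (c : F) : IsCoprime h (X - C c) := by
  apply IsCoprime.symm
  rw [(irreducible_X_sub_C c).coprime_iff_not_dvd, dvd_iff_isRoot]
  exact hr c

theorem coprime_lin' {h : F[X]} {c : F} (hr : h.eval c ≠ 0) : IsCoprime h (X - C c) := by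
  apply IsCoprime.symm
  rw [(irreducible_X_sub_C c).coprime_iff_not_dvd, dvd_iff_isRoot]
  exact hr

theorem coprime_hp {e : ℕ} {v₁ b₁ v₂ b₂ : F} (hb : b₁ ≠ b₂)
    (h1 : ∀ x, (hp e v₁ b₁).eval x ≠ 0) : IsCoprime (hp e v₁ b₁) (hp e v₂ b₂) := by
  have hsub : hp e v₁ b₁ - hp e v₂ b₂ = C (v₁ - v₂) * X + C (b₁ - b₂) := by
    unfold hp
    simp only [C_sub]
    ring
  have hb' : b₁ - b₂ ≠ 0 := sub_ne_zero.2 hb
  have key : IsCoprime (hp e v₁ b₁ - hp e v₂ b₂) (hp e v₁ b₁) := by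
    by_cases hv : v₁ = v₂
    · rw [hsub, hv, sub_self, C_0, zero_mul, zero_add]
      exact unit_cop (isUnit_C.2 (isUnit_iff_ne_zero.2 hb'))
    · have hv' : v₁ - v₂ ≠ 0 := sub_ne_zero.2 hv
      have h2 : hp e v₁ b₁ - hp e v₂ b₂ =
          C (v₁ - v₂) * (X - C (-(b₁ - b₂) / (v₁ - v₂))) := by
        rw [hsub, mul_sub, ← C_mul, mul_div_cancel₀ _ hv', C_neg, sub_neg_eq_add]
      rw [h2]
      exact IsCoprime.mul_left
        (unit_cop (isUnit_C.2 (isUnit_iff_ne_zero.2 hv')))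
        (coprime_lin h1 _).symm
  obtain ⟨a, b, hab⟩ := key
  exact ⟨a + b, -a, by linear_combination hab⟩

/-- `(X^e + vX + b)(X - c)` -/
noncomputable def gp (e : ℕ) (v b c : F) : F[X] := hp e v b * (X - C c)

theorem gp_monic {e : ℕ} (he : 2 ≤ e) (v b c : F) : (gp e v b c).Monic :=
  (hp_monic he v b).mul (monic_X_sub_C c)

theorem gp_natDegree {e : ℕ} (he : 2 ≤ e) (v b c : F) : (gp e v b c).natDegree = e + 1 := by
  unfold gp
  rw [(hp_monic he v b).natDegree_mul (monic_X_sub_C c), hp_natDegree he, natDegree_X_sub_C]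

theorem gp_coeff {e : ℕ} (he : 2 ≤ e) (v b c : F) : (gp e v b c).coeff 0 = -(b * c) := by
  unfold gp
  rw [mul_coeff_zero, hp_coeff he]
  simp

theorem gp_eval (e : ℕ) (v b c x : F) :
    (gp e v b c).eval x = (x ^ e + v * x + b) * (x - c) := by
  unfold gp
  rw [eval_mul, hp_eval]
  simp

theorem coprime_gp {e : ℕ} {v₁ b₁ c₁ v₂ b₂ c₂ : F} (hb : b₁ ≠ b₂) (hc : c₁ ≠ c₂)
    (h1 : ∀ x, (hp e v₁ b₁).eval x ≠ 0) (h2 : ∀ x, (hp e v₂ b₂).eval x ≠ 0) :
    IsCoprime (gp e v₁ b₁ c₁) (gp e v₂ b₂ c₂) := by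
  unfold gp
  apply IsCoprime.mul_left
  · exact IsCoprime.mul_right (coprime_hp hb h1) (coprime_lin h1 c₂)
  · apply IsCoprime.mul_right (coprime_lin h2 c₁).symm
    apply coprime_lin'
    simpa [sub_eq_zero] using hc.symm

theorem SR_gp {e : ℕ} {v b c : F} (h1 : ∀ x, (hp e v b).eval x ≠ 0) : SR (gp e v b c) :=
  ⟨c, hp e v b, rfl, h1 c⟩

/-! ### scalars, determinants -/

theorem sc_apply {V : Type u} [AddCommGroup V] [Module F V] (l : Fˣ) (x : V) :
    sc V l x = (l : F) • x := rfl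

theorem q2_bs_apply {U W : Type u} [AddCommGroup U] [Module F U] [AddCommGroup W] [Module F W]
    (A : U ≃ₗ[F] U) (B : W ≃ₗ[F] W) (x : U × W) : bs A B x = (A x.1, B x.2) := rfl

theorem det_bs {U W : Type u} [AddCommGroup U] [Module F U] [FiniteDimensional F U]
    [AddCommGroup W] [Module F W] [FiniteDimensional F W] (A : U ≃ₗ[F] U) (B : W ≃ₗ[F] W) :
    LinearEquiv.det (bs A B) = LinearEquiv.det A * LinearEquiv.det B := by
  ext
  rw [Units.val_mul, LinearEquiv.coe_det, LinearEquiv.coe_det, LinearEquiv.coe_det]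
  have h : ((bs A B : (U × W) ≃ₗ[F] (U × W)) : (U × W) →ₗ[F] (U × W)) =
      LinearMap.prodMap (A : U →ₗ[F] U) (B : W →ₗ[F] W) := by
    ext <;> rfl
  rw [h, LinearMap.det_prodMap]

theorem det_sim {V W : Type u} [AddCommGroup V] [Module F V] [FiniteDimensional F V]
    [AddCommGroup W] [Module F W] [FiniteDimensional F W]
    {A : V ≃ₗ[F] V} {B : W ≃ₗ[F] W} (e : V ≃ₗ[F] W) (he : ∀ x, e (A x) = B (e x)) :
    LinearEquiv.det A = LinearEquiv.det B := by
  ext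
  rw [LinearEquiv.coe_det, LinearEquiv.coe_det, ← LinearMap.det_conj (A : V →ₗ[F] V) e]
  congr 1
  ext x
  show e (A (e.symm x)) = B x
  rw [he, e.apply_symm_apply]

/-! ### the two inputs -/

/-- statement of piece W (windows) -/
def WStmt (F : Type u) [Field F] : Prop :=
  ∀ (E U : Type u) [AddCommGroup E] [Module F E] [FiniteDimensional F E]
    [AddCommGroup U] [Module F U] [FiniteDimensional F U] (l : Fˣ) (C : U ≃ₗ[F] U) (f : F[X]),
    Cyc C f → 2 ≤ finrank F U → ∀ k : ℕ, 1 ≤ k →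
    finrank F E + finrank F U ≤ k * (finrank F U - 1) + 1 →
    ∃ (D : (E × U) ≃ₗ[F] (E × U)) (p : F[X]), Cyc D p ∧ WP (bs (sc E l) C) k D

/-- statement of `starW` -/
def SStmt (F : Type u) [Field F] : Prop :=
  ∀ (V : Type u) [AddCommGroup V] [Module F V] [FiniteDimensional F V]
    (A E M : V ≃ₗ[F] V) (k : ℕ), 2 ≤ finrank F V → NS A → ∀ p q : F[X],
    Cyc E p → WP A k E → Cyc M q → SR q →
    LinearEquiv.det M = LinearEquiv.det A ^ (k + 1) → WP A (k + 1) M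

/-! ### half of the space -/

section half

variable {U : Type u} [AddCommGroup U] [Module F U] [FiniteDimensional F U] (l : Fˣ)
  {C : U ≃ₗ[F] U} {f : F[X]}

theorem finrank_half (s : ℕ) (hU : finrank F U = 2) : finrank F ((Fin s → F) × U) = s + 2 := by
  rw [finrank_prod, hU, finrank_fin_fun]

theorem ns_half (s : ℕ) (hU : finrank F U = 2) (hC : Cyc C f) :
    NS (bs (sc (Fin s → F) l) C) := by
  obtain ⟨w, hw⟩ := hC.ns (by omega)
  refine ⟨(0, w), fun c hc => hw c ?_⟩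
  rw [q2_bs_apply] at hc
  exact congrArg Prod.snd hc

theorem half (hW : WStmt F) (hS : SStmt F) {s : ℕ} (hs : 1 ≤ s) (hU : finrank F U = 2) (hC : Cyc C f)
    {M : ((Fin s → F) × U) ≃ₗ[F] ((Fin s → F) × U)} {q : F[X]} (hM : Cyc M q) (hq : SR q)
    (hdet : LinearEquiv.det M = LinearEquiv.det (bs (sc (Fin s → F) l) C) ^ (s + 2)) :
    WP (bs (sc (Fin s → F) l) C) (s + 2) M := by
  obtain ⟨D, p, hD, hWD⟩ := hW (Fin s → F) U l C f hC (by omega) (s + 1) (by omega)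
    (by rw [hU, finrank_fin_fun]; omega)
  exact hS _ _ _ _ (s + 1) (by rw [finrank_half s hU]; omega) (ns_half l s hU hC) _ _ hD hWD
    hM hq hdet

/-- the two halves -/
theorem exists_pair [Fintype F] (s : ℕ) (hs : 1 ≤ s) (hU : finrank F U = 2)
    {c₁ c₂ : F} (h1 : c₁ ≠ 0) (h2 : c₂ ≠ 0) (h12 : c₁ ≠ c₂) :
    ∃ (D₁ D₂ : ((Fin s → F) × U) ≃ₗ[F] ((Fin s → F) × U)) (v₁ v₂ b₁ b₂ : F),
      Cyc D₁ (gp (s + 1) v₁ b₁ c₁) ∧ Cyc D₂ (gp (s + 1) v₂ b₂ c₂) ∧
      (∀ x, (hp (s + 1) v₁ b₁).eval x ≠ 0) ∧ (∀ x, (hp (s + 1) v₂ b₂).eval x ≠ 0) ∧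
      IsCoprime (gp (s + 1) v₁ b₁ c₁) (gp (s + 1) v₂ b₂ c₂) ∧
      LinearEquiv.det D₁ = LinearEquiv.det (bs (sc (Fin s → F) l) C) ^ (s + 2) ∧
      LinearEquiv.det D₂ = LinearEquiv.det (bs (sc (Fin s → F) l) C) ^ (s + 2) := by
  set δ : Fˣ := LinearEquiv.det (bs (sc (Fin s → F) l) C) ^ (s + 2) with hδ
  have hone : ∀ c : F, c ≠ 0 → ∃ (D : ((Fin s → F) × U) ≃ₗ[F] ((Fin s → F) × U)) (v : F),
      Cyc D (gp (s + 1) v ((-1) ^ (s + 1) * δ / c) c) ∧
      (∀ x, (hp (s + 1) v ((-1) ^ (s + 1) * δ / c)).eval x ≠ 0) ∧ LinearEquiv.det D = δ := by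
    intro c hc
    have hb : ((-1) ^ (s + 1) * δ / c : F) ≠ 0 :=
      div_ne_zero (mul_ne_zero (pow_ne_zero _ (by simp)) δ.ne_zero) hc
    obtain ⟨v, hv⟩ := exists_rootless (e := s + 1) (by omega) hb
    obtain ⟨D, hD⟩ := Cyc.exists (V := (Fin s → F) × U) (s + 2) (finrank_half s hU)
      (gp_monic (e := s + 1) (by omega) v ((-1) ^ (s + 1) * δ / c) c)
      (gp_natDegree (by omega) _ _ _)
      (by rw [gp_coeff (by omega)]; exact neg_ne_zero.2 (mul_ne_zero hb hc))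
    refine ⟨D, v, hD, fun x => by rw [hp_eval]; exact hv x, ?_⟩
    ext
    rw [hD.det, finrank_half s hU, gp_coeff (by omega), div_mul_cancel₀ _ hc]
    have : ((-1 : F) ^ (s + 1)) * (-1) ^ (s + 1) = 1 := by
      rw [← mul_pow]; simp
    rw [show s + 2 = (s + 1) + 1 from rfl, pow_succ ((-1 : F)) (s + 1)]
    linear_combination (δ : F) * this
  obtain ⟨D₁, v₁, hD₁, hr₁, hd₁⟩ := hone c₁ h1
  obtain ⟨D₂, v₂, hD₂, hr₂, hd₂⟩ := hone c₂ h2
  refine ⟨D₁, D₂, v₁, v₂, _, _, hD₁, hD₂, hr₁, hr₂, coprime_gp ?_ h12 hr₁ hr₂, hd₁, hd₂⟩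
  intro h
  rw [div_eq_div_iff h1 h2] at h
  have h3 : ((-1 : F) ^ (s + 1) * δ) ≠ 0 := mul_ne_zero (pow_ne_zero _ (by simp)) δ.ne_zero
  exact h12 (mul_left_cancel₀ h3 h).symm

end half

/-! ### transport -/

theorem pow_trans {V W : Type u} [AddCommGroup V] [Module F V] [AddCommGroup W] [Module F W]
    (e : V ≃ₗ[F] W) (D : W ≃ₗ[F] W) (n : ℕ) (x : V) :
    e (((((e.trans D).trans e.symm : V ≃ₗ[F] V) : V →ₗ[F] V) ^ n) x) =
      ((D : W →ₗ[F] W) ^ n) (e x) := by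
  induction n generalizing x with
  | zero => rfl
  | succ n ih =>
    rw [pow_succ, pow_succ, Module.End.mul_apply, Module.End.mul_apply, ih]
    congr 1
    show e (e.symm (D (e x))) = D (e x)
    rw [e.apply_symm_apply]

theorem cyc_trans {V W : Type u} [AddCommGroup V] [Module F V] [FiniteDimensional F V]
    [AddCommGroup W] [Module F W] [FiniteDimensional F W]
    (e : V ≃ₗ[F] W) {D : W ≃ₗ[F] W} {p : F[X]} (h : Cyc D p) :
    Cyc ((e.trans D).trans e.symm) p := by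
  obtain ⟨hm, hd, ⟨v, hv⟩, h0⟩ := h
  refine ⟨hm, by rw [hd, e.finrank_eq], ⟨e.symm v, ?_⟩, ?_⟩
  · intro S hvS hS
    have h1 := hv (S.map (e : V →ₗ[F] W)) ⟨e.symm v, hvS, e.apply_symm_apply v⟩ (by
      rintro _ ⟨w, hw, rfl⟩
      refine ⟨_, hS w hw, ?_⟩
      show e (e.symm (D (e w))) = D (e w)
      rw [e.apply_symm_apply])
    rw [eq_top_iff]
    intro x _
    have h2 : e x ∈ S.map (e : V →ₗ[F] W) := by rw [h1]; trivial
    obtain ⟨y, hy, hyx⟩ := h2
    have : y = x := e.injective hyx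
    rwa [this] at hy
  · ext x
    apply e.injective
    rw [LinearMap.zero_apply, map_zero, aeval_eq_sum_range, LinearMap.sum_apply, map_sum]
    have h2 : (aeval (D : W →ₗ[F] W) p) (e x) = 0 := by rw [h0]; rfl
    rw [aeval_eq_sum_range, LinearMap.sum_apply] at h2
    rw [← h2]
    refine Finset.sum_congr rfl fun i _ => ?_
    rw [LinearMap.smul_apply, LinearMap.smul_apply, map_smul]
    congr 1
    exact pow_trans e D i x

/-! ### one-dimensional scalars -/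

theorem wp_sc {V : Type u} [AddCommGroup V] [Module F V] [FiniteDimensional F V] (l : Fˣ) :
    ∀ k : ℕ, WP (sc V l) k (sc V (l ^ k)) := by
  intro k
  induction k with
  | zero =>
    refine ⟨[], rfl, ?_⟩
    show sc V (l ^ 0) = 1
    ext x
    rw [sc_apply]; simp
  | succ k ih =>
    have := WP.mul ih (WP.one (sc V l))
    convert this using 1
    ext x
    show ((l ^ (k + 1) : Fˣ) : F) • x = ((l ^ k : Fˣ) : F) • ((l : F) • x)
    rw [smul_smul, ← Units.val_mul, ← pow_succ]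

theorem cyc_sc (l : Fˣ) : Cyc (sc (Fin 1 → F) l) (X - Polynomial.C (l : F)) := by
  refine ⟨monic_X_sub_C _, by rw [natDegree_X_sub_C, finrank_fin_fun], ⟨fun _ => 1, ?_⟩, ?_⟩
  · intro S hS _
    rw [eq_top_iff]
    intro x _
    have : x = x 0 • (fun _ => 1 : Fin 1 → F) := by
      ext i
      rw [Subsingleton.elim i 0]
      simp
    rw [this]
    exact S.smul_mem _ hS
  · ext x
    simp [sc_apply, Algebra.algebraMap_eq_smul_one]

/-! ### the theorem -/

theorem exists_three [Fintype F] (h4 : 4 ≤ Fintype.card F) (a : F) :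
    ∃ c₁ c₂ : F, c₁ ≠ 0 ∧ c₂ ≠ 0 ∧ c₁ ≠ c₂ ∧ c₁ ≠ a ∧ c₂ ≠ a := by
  classical
  have h1 : (({0, a} : Finset F)ᶜ).Nontrivial := by
    rw [← Finset.one_lt_card_iff_nontrivial, Finset.card_compl]
    have : ({0, a} : Finset F).card ≤ 2 := Finset.card_le_two
    omega
  obtain ⟨c₁, hc₁, c₂, hc₂, h⟩ := h1
  simp only [Finset.coe_compl, Finset.coe_insert, Finset.coe_singleton, Set.mem_compl_iff,
    Set.mem_insert_iff, Set.mem_singleton_iff, not_or] at hc₁ hc₂
  exact ⟨c₁, c₂, hc₁.1, hc₂.1, h, hc₁.2, hc₂.2⟩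

theorem of_sim' {V W : Type u} [AddCommGroup V] [Module F V] [FiniteDimensional F V]
    [AddCommGroup W] [Module F W] {A : V ≃ₗ[F] V} {B : W ≃ₗ[F] W}
    (e : V ≃ₗ[F] W) (he : ∀ x, e (A x) = B (e x)) {k : ℕ} {D : W ≃ₗ[F] W} (h : WP B k D) :
    WP A k ((e.trans D).trans e.symm) := by
  rw [WP.of_sim e he]
  convert h using 1
  ext x
  show e (e.symm (D (e (e.symm x)))) = D x
  rw [e.apply_symm_apply, e.apply_symm_apply]

theorem Q2_of [Fintype F] (hW : WStmt F) (hS : SStmt F) (h4 : 4 ≤ Fintype.card F)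
    {E U U' : Type u}
    [AddCommGroup E] [Module F E] [FiniteDimensional F E]
    [AddCommGroup U] [Module F U] [FiniteDimensional F U]
    [AddCommGroup U'] [Module F U'] [FiniteDimensional F U'] (l : Fˣ) {C : U ≃ₗ[F] U}
    {C' : U' ≃ₗ[F] U'} {f : F[X]} (hU : finrank F U = 2) (hU' : finrank F U' = 2)
    (hC : Cyc C f) (hC' : Cyc C' f) (hE : 2 ≤ finrank F E) :
    H (bs (sc E l) (bs C C')) := by
  unfold H
  have hfull : Full (bs (sc E l) (bs C C')) := Full.bs_sc (by omega) l _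
  have hn : finrank F (E × U × U') = finrank F E + 4 := by
    rw [finrank_prod, finrank_prod, hU, hU']
  obtain ⟨eC, heC⟩ := hC'.sim hC
  rcases Nat.even_or_odd' (finrank F E) with ⟨s, hs | hs⟩
  · -- even
    have hs1 : 1 ≤ s := by omega
    have hk : finrank F (E × U × U') / 2 = s + 2 := by omega
    rw [hk]
    obtain ⟨c₁, c₂, h1, h2, h12, -, -⟩ := exists_three h4 (0 : F)
    obtain ⟨D₁, D₂, v₁, v₂, b₁, b₂, hD₁, hD₂, hr₁, hr₂, hcop, hd₁, hd₂⟩ :=
      exists_pair l s hs1 hU (C := C) h1 h2 h12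
    have hW₁ := half l hW hS hs1 hU hC hD₁ (SR_gp hr₁) hd₁
    have hW₂ := half l hW hS hs1 hU hC hD₂ (SR_gp hr₂) hd₂
    let eE : E ≃ₗ[F] (Fin s → F) × (Fin s → F) := LinearEquiv.ofFinrankEq _ _ (by
      rw [finrank_prod, finrank_fin_fun]; omega)
    let e : (E × U × U') ≃ₗ[F] (((Fin s → F) × U) × ((Fin s → F) × U)) :=
      (eE.prodCongr ((LinearEquiv.refl F U).prodCongr eC)).trans
        (LinearEquiv.prodProdProdComm F (Fin s → F) (Fin s → F) U U)
    have he : ∀ x, e (bs (sc E l) (bs C C') x) =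
        bs (bs (sc (Fin s → F) l) C) (bs (sc (Fin s → F) l) C) (e x) := by
      rintro ⟨x, y, z⟩
      show (((eE ((l : F) • x)).1, C y), ((eE ((l : F) • x)).2, eC (C' z))) =
        ((((l : F) • (eE x).1), C y), (((l : F) • (eE x).2), C (eC z)))
      rw [heC, map_smul]
      rfl
    refine ⟨(e.trans (bs D₁ D₂)).trans e.symm, _, cyc_trans e (Cyc.bs hD₁ hD₂ hcop), ?_, ?_, ?_⟩
    · refine ⟨c₁, hp (s + 1) v₁ b₁ * gp (s + 1) v₂ b₂ c₂, ?_, ?_⟩
      · unfold gp; ring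
      · rw [eval_mul]
        refine mul_ne_zero (hr₁ c₁) ?_
        unfold gp
        rw [eval_mul]
        refine mul_ne_zero (hr₂ c₁) ?_
        simpa [sub_eq_zero] using h12
    · exact (of_sim' e he (WP.bs hW₁ hW₂)).sp_of_full hfull
    · intro _ hdet
      rw [det_sim e he, det_bs, ← pow_two] at hdet
      have hdd : (LinearEquiv.det (bs (sc (Fin s → F) l) C) ^ (s + 2))⁻¹ =
          LinearEquiv.det (bs (sc (Fin s → F) l) C) ^ (s + 2) := by
        rw [inv_eq_iff_mul_eq_one, ← pow_add, ← two_mul, pow_mul, hdet, one_pow]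
      obtain ⟨q₁, hq₁, hs₁⟩ := hD₁.inv
      obtain ⟨q₂, hq₂, hs₂⟩ := hD₂.inv
      have hV₁ := half l hW hS hs1 hU hC hq₁ (hs₁ (SR_gp hr₁)) (by rw [map_inv, hd₁, hdd])
      have hV₂ := half l hW hS hs1 hU hC hq₂ (hs₂ (SR_gp hr₂)) (by rw [map_inv, hd₂, hdd])
      have := (of_sim' e he (WP.bs hV₁ hV₂)).sp_of_full hfull
      have h7 : ((e.trans (bs D₁ D₂)).trans e.symm)⁻¹ =
          (e.trans (bs D₁⁻¹ D₂⁻¹)).trans e.symm := LinearEquiv.ext fun x => rfl
      rw [h7]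
      exact this
  · -- odd
    have hs1 : 1 ≤ s := by omega
    have hk : finrank F (E × U × U') / 2 = s + 2 := by omega
    rw [hk]
    obtain ⟨c₁, c₂, h1, h2, h12, h1l, h2l⟩ := exists_three h4 ((l ^ (s + 2) : Fˣ) : F)
    obtain ⟨D₁, D₂, v₁, v₂, b₁, b₂, hD₁, hD₂, hr₁, hr₂, hcop, hd₁, hd₂⟩ :=
      exists_pair l s hs1 hU (C := C) h1 h2 h12
    have hW₁ := half l hW hS hs1 hU hC hD₁ (SR_gp hr₁) hd₁
    have hW₂ := half l hW hS hs1 hU hC hD₂ (SR_gp hr₂) hd₂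
    have hW₀ := wp_sc (V := Fin 1 → F) l (s + 2)
    let eE : E ≃ₗ[F] (Fin 1 → F) × ((Fin s → F) × (Fin s → F)) := LinearEquiv.ofFinrankEq _ _ (by
      rw [finrank_prod, finrank_prod, finrank_fin_fun, finrank_fin_fun]; omega)
    let e : (E × U × U') ≃ₗ[F] ((Fin 1 → F) × (((Fin s → F) × U) × ((Fin s → F) × U))) :=
      ((eE.prodCongr ((LinearEquiv.refl F U).prodCongr eC)).trans
        (LinearEquiv.prodAssoc F (Fin 1 → F) ((Fin s → F) × (Fin s → F)) (U × U))).trans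
        ((LinearEquiv.refl F (Fin 1 → F)).prodCongr
          (LinearEquiv.prodProdProdComm F (Fin s → F) (Fin s → F) U U))
    have he : ∀ x, e (bs (sc E l) (bs C C') x) =
        bs (sc (Fin 1 → F) l)
          (bs (bs (sc (Fin s → F) l) C) (bs (sc (Fin s → F) l) C)) (e x) := by
      rintro ⟨x, y, z⟩
      show ((eE ((l : F) • x)).1, (((eE ((l : F) • x)).2.1, C y),
          ((eE ((l : F) • x)).2.2, eC (C' z)))) =
        (((l : F) • (eE x).1), ((((l : F) • (eE x).2.1), C y), (((l : F) • (eE x).2.2), C (eC z))))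
      rw [heC, map_smul]
      rfl
    have hg : ∀ {v b c : F}, (∀ x, (hp (s + 1) v b).eval x ≠ 0) →
        c ≠ ((l ^ (s + 2) : Fˣ) : F) → (gp (s + 1) v b c).eval ((l ^ (s + 2) : Fˣ) : F) ≠ 0 := by
      intro v b c hr hc
      unfold gp
      rw [eval_mul]
      refine mul_ne_zero (hr _) ?_
      rw [eval_sub, eval_X, eval_C]
      exact sub_ne_zero.2 hc.symm
    have hcop' : IsCoprime (X - Polynomial.C ((l ^ (s + 2) : Fˣ) : F))
        (gp (s + 1) v₁ b₁ c₁ * gp (s + 1) v₂ b₂ c₂) :=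
      IsCoprime.mul_right (coprime_lin' (hg hr₁ h1l)).symm (coprime_lin' (hg hr₂ h2l)).symm
    refine ⟨(e.trans (bs (sc (Fin 1 → F) (l ^ (s + 2))) (bs D₁ D₂))).trans e.symm, _,
      cyc_trans e (Cyc.bs (cyc_sc _) (Cyc.bs hD₁ hD₂ hcop) hcop'), ?_, ?_, ?_⟩
    · refine ⟨((l ^ (s + 2) : Fˣ) : F), gp (s + 1) v₁ b₁ c₁ * gp (s + 1) v₂ b₂ c₂, ?_, ?_⟩
      · ring
      · rw [eval_mul]
        exact mul_ne_zero (hg hr₁ h1l) (hg hr₂ h2l)
    · exact (of_sim' e he (WP.bs hW₀ (WP.bs hW₁ hW₂))).sp_of_full hfull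
    · intro heven
      exact absurd heven (by rw [hn, hs]; simp [Nat.even_add_one, parity_simps])

theorem sStmt : SStmt F := fun _ _ _ _ _ _ _ _ h2 hA _ _ hE hSE hM hq hdet =>
  CovSTAR.starW h2 hA hE hSE hM hq hdet

/-- `Q2` modulo piece W; use
`Q2_ofW (fun _ _ _ _ _ _ _ _ l _ _ hC h2 _ hk1 hk => W l hC h2 hk1 hk)`. -/
theorem Q2_ofW [Fintype F] (hW : WStmt F) (h4 : 4 ≤ Fintype.card F)
    {E U U' : Type u}
    [AddCommGroup E] [Module F E] [FiniteDimensional F E]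
    [AddCommGroup U] [Module F U] [FiniteDimensional F U]
    [AddCommGroup U'] [Module F U'] [FiniteDimensional F U'] (l : Fˣ) {C : U ≃ₗ[F] U}
    {C' : U' ≃ₗ[F] U'} {f : F[X]} (hU : finrank F U = 2) (hU' : finrank F U' = 2)
    (hC : Cyc C f) (hC' : Cyc C' f) (hE : 2 ≤ finrank F E) :
    H (bs (sc E l) (bs C C')) :=
  Q2_of hW sStmt h4 l hU hU' hC hC' hE

end Cfsg.Agent.Lib.CovQ2
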