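import Mathlib
import Cfsg.Agent.Lib.CovDefs

set_option autoImplicit false
set_option linter.all false

namespace Cfsg.Agent.Lib.CovR1

open Module Polynomial Cfsg.Agent.Lib.CyclicProd Cfsg.Agent.Lib.CovDefs

universe u

variable {F : Type u} [Field F] {V : Type u} [AddCommGroup V] [Module F V]
  [FiniteDimensional F V]

theorem exists_perm1 {n n' : Type*} [Fintype n] [Fintype n'] [DecidableEq n'] (h : Fintype.card n = Fintype.card n')
    (i : n) (i' : n') : ∃ σ : n ≃ n', σ i = i' := by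
  let e0 := Fintype.equivOfCardEq h
  exact ⟨e0.trans (Equiv.swap (e0 i) i'), by simp⟩

theorem exists_perm2 {n n' : Type*} [Fintype n] [Fintype n'] [DecidableEq n'] (h : Fintype.card n = Fintype.card n')
    {i j : n} {i' j' : n'} (hij : i ≠ j) (hij' : i' ≠ j') : ∃ σ : n ≃ n', σ i = i' ∧ σ j = j' := by
  obtain ⟨σ, hσ⟩ := exists_perm1 h i i'
  refine ⟨σ.trans (Equiv.swap (σ j) j'), ?_, by simp⟩
  simp only [Equiv.trans_apply, hσ]
  apply Equiv.swap_apply_of_ne_of_ne _ hij'
  intro h2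
  rw [← hσ] at h2
  exact hij (σ.injective h2)

/-- transitivity on pairs (vector, functional) with the same pairing -/
theorem exists_g0 {f f' : Dual F V} {v v' : V} (hf : f ≠ 0) (hf' : f' ≠ 0) (hv : v ≠ 0)
    (hv' : v' ≠ 0) (h : f v = f' v') :
    ∃ g : V ≃ₗ[F] V, g v = v' ∧ ∀ x, f' (g x) = f x := by
  classical
  by_cases h0 : f v = 0
  · obtain ⟨n, b, i, j, hij, hvi, hfj⟩ := exists_basis_of_pairing_eq_zero h0 hf hv
    obtain ⟨n', b', i', j', hij', hvi', hfj'⟩ := exists_basis_of_pairing_eq_zero (h ▸ h0) hf' hv'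
    have : Fintype n := FiniteDimensional.fintypeBasisIndex b
    have : Fintype n' := FiniteDimensional.fintypeBasisIndex b'
    obtain ⟨σ, hi, hj⟩ := exists_perm2 (by rw [← finrank_eq_card_basis b, ← finrank_eq_card_basis b']) hij hij'
    refine ⟨b.equiv b' σ, by rw [hvi, hvi', Basis.equiv_apply, hi], ?_⟩
    intro x
    have : f' ∘ₗ (b.equiv b' σ).toLinearMap = f := by
      apply b.ext
      intro k
      simp only [LinearMap.comp_apply, LinearEquiv.coe_coe, Basis.equiv_apply, hfj, hfj', Basis.coord_apply,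
        Basis.repr_self, Finsupp.single_apply]
      simp only [← hj, σ.injective.eq_iff]
    exact LinearMap.congr_fun this x
  · obtain ⟨n, b, i, hvi, hfi⟩ := exists_basis_of_pairing_ne_zero h0
    obtain ⟨n', b', i', hvi', hfi'⟩ := exists_basis_of_pairing_ne_zero (h ▸ h0 : f' v' ≠ 0)
    have : Fintype n := FiniteDimensional.fintypeBasisIndex b
    have : Fintype n' := FiniteDimensional.fintypeBasisIndex b'
    obtain ⟨σ, hi⟩ := exists_perm1 (by rw [← finrank_eq_card_basis b, ← finrank_eq_card_basis b']) i i'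
    refine ⟨b.equiv b' σ, by rw [hvi, hvi', Basis.equiv_apply, hi], ?_⟩
    intro x
    have : f' ∘ₗ (b.equiv b' σ).toLinearMap = f := by
      apply b.ext
      intro k
      rw [hfi, hfi', ← h]
      simp only [LinearMap.comp_apply, LinearEquiv.coe_coe, Basis.equiv_apply, Basis.coord_apply,
        Basis.repr_self, Finsupp.single_apply, LinearMap.smul_apply]
      simp only [← hi, σ.injective.eq_iff]
    exact LinearMap.congr_fun this x

theorem exists_g (h3 : 3 ≤ finrank F V) {f f' : Dual F V} {v v' : V} (hf : f ≠ 0) (hf' : f' ≠ 0) (hv : v ≠ 0)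
    (hv' : v' ≠ 0) (h : f v = f' v') (c : Fˣ) :
    ∃ g : V ≃ₗ[F] V, LinearEquiv.det g = c ∧ g v = v' ∧ ∀ x, f' (g x) = f x := by
  obtain ⟨g0, hg1, hg2⟩ := exists_g0 hf hf' hv hv' h
  obtain ⟨w, hw1, hw2⟩ : ∃ w, f' w = 0 ∧ w ∉ Submodule.span F {v'} := by
    by_contra hcon
    push Not at hcon
    have h1 : LinearMap.ker f' ≤ Submodule.span F {v'} := fun w hw => hcon w (by simpa using hw)
    have h2 := Submodule.finrank_mono h1
    have h3' := finrank_span_singleton (K := F) hv'
    have h4 := Dual.finrank_ker_add_one_of_ne_zero hf'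
    omega
  obtain ⟨ψ, hψ1, hψ2⟩ := Submodule.exists_dual_map_eq_bot_of_notMem hw2 inferInstance
  have hψv : ψ v' = 0 := by
    have : ψ v' ∈ (Submodule.span F {v'}).map ψ := Submodule.mem_map_of_mem (Submodule.mem_span_singleton_self v')
    rw [hψ2] at this
    simpa using this
  set d : Fˣ := c * (LinearEquiv.det g0)⁻¹ with hd
  set w' : V := (((d : F) - 1) * (ψ w)⁻¹) • w with hw'
  have hψw' : ψ w' = (d : F) - 1 := by
    rw [hw', map_smul, smul_eq_mul, mul_assoc, inv_mul_cancel₀ hψ1, mul_one]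
  have hu : IsUnit (1 + ψ w') := by rw [hψw']; simp
  refine ⟨LinearEquiv.dilatransvection hu * g0, ?_, ?_, ?_⟩
  · rw [map_mul]
    have : LinearEquiv.det (LinearEquiv.dilatransvection hu) = d := by
      ext
      rw [LinearEquiv.coe_det, LinearEquiv.dilatransvection.coe_toLinearMap, LinearMap.transvection.det, hψw']
      ring
    rw [this, hd, inv_mul_cancel_right]
  · rw [LinearEquiv.mul_apply, hg1, LinearEquiv.dilatransvection.apply, hψv, zero_smul, add_zero]
  · intro x
    rw [LinearEquiv.mul_apply, LinearEquiv.dilatransvection.apply, map_add, map_smul, hw', map_smul, hw1]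
    simp [hg2]

/-- `GP μ k M`: `M` is a product of `k` non-trivial dilatransvections with determinant `μ` -/
def GP (μ : Fˣ) : ℕ → (V ≃ₗ[F] V) → Prop
  | 0, M => M = 1
  | k + 1, M => ∃ (T P : V ≃ₗ[F] V) (f : Dual F V) (v : V), f ≠ 0 ∧ v ≠ 0 ∧ f v = (μ : F) - 1 ∧
      (∀ x, T x = x + f x • v) ∧ GP μ k P ∧ M = T * P

theorem IP_of_GP (h3 : 3 ≤ finrank F V) {A : V ≃ₗ[F] V} {l μ : Fˣ} {f : Dual F V} {v : V} (hf : f ≠ 0)
    (hv : v ≠ 0) (hfv : f v = (μ : F) - 1) (hA : ∀ x, A x = (l : F) • (x + f x • v)) :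
    ∀ (k : ℕ) (M : V ≃ₗ[F] V), GP μ k M → IP A (List.replicate k 1) (sc V (l ^ k) * M)
  | 0, M, h => by
      change _ = _
      rw [show M = 1 from h]
      ext x
      rw [mul_one, pow_zero]
      change ((1 : Fˣ) : F) • x = x
      simp
  | k + 1, M, h => by
      obtain ⟨T, P, f', v', hf', hv', hfv', hT, hP, rfl⟩ := h
      obtain ⟨g, hg1, hg2, hg3⟩ := exists_g h3 hf hf' hv hv' (hfv.trans hfv'.symm) 1
      refine ⟨g, sc V (l ^ k) * P, hg1, IP_of_GP h3 hf hv hfv hA k P hP, ?_⟩
      ext x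
      have h1 : ∀ y, (g * A * g⁻¹) y = (l : F) • T y := by
        intro y
        rw [LinearEquiv.mul_apply, LinearEquiv.mul_apply, hA, map_smul, map_add, map_smul, hg2, hT]
        have h2 : g (g⁻¹ y) = y := by rw [← LinearEquiv.mul_apply, mul_inv_cancel]; rfl
        rw [h2, ← hg3, h2]
      rw [LinearEquiv.mul_apply, LinearEquiv.mul_apply, LinearEquiv.mul_apply, h1, LinearEquiv.mul_apply]
      change ((l ^ (k+1) : Fˣ) : F) • T (P x) = (l : F) • T (((l ^ k : Fˣ) : F) • P x)
      rw [map_smul, smul_smul, Units.val_pow_eq_pow_val, Units.val_pow_eq_pow_val, pow_succ']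

theorem exists_T {f : Dual F V} {v : V} {μ : Fˣ} (h : f v = (μ : F) - 1) :
    ∃ T : V ≃ₗ[F] V, (∀ x, T x = x + f x • v) ∧ LinearEquiv.det T = μ := by
  have hu : IsUnit (1 + f v) := by rw [h]; simp
  refine ⟨LinearEquiv.dilatransvection hu, fun x => LinearEquiv.dilatransvection.apply, ?_⟩
  ext
  rw [LinearEquiv.coe_det, LinearEquiv.dilatransvection.coe_toLinearMap, LinearMap.transvection.det, h]
  ring

theorem exists_ne2 [Fintype F] (h4 : 4 ≤ Fintype.card F) (a b : F) : ∃ c : F, c ≠ a ∧ c ≠ b := by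
  classical
  by_contra h
  push Not at h
  have : (Finset.univ : Finset F) ⊆ {a, b} := by
    intro c _
    by_cases hc : c = a
    · simp [hc]
    · simp [h c hc]
  have h1 := Finset.card_le_card this
  have h2 : ({a, b} : Finset F).card ≤ 2 := Finset.card_le_two
  rw [Finset.card_univ] at h1
  omega

/-- chains of transvections in one root subgroup -/
theorem GP_chain [Fintype F] (h4 : 4 ≤ Fintype.card F) {f : Dual F V} {v : V} (hf : f ≠ 0) (hv : v ≠ 0)
    (h : f v = 0) (k : ℕ) : ∀ (s : F) (M : V ≃ₗ[F] V), (∀ x, M x = x + (s * f x) • v) → GP 1 (k + 2) M := by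
  induction k with
  | zero =>
    intro s M hM
    obtain ⟨a, ha0, has⟩ := exists_ne2 h4 0 s
    have e1 : (a • f) v = ((1 : Fˣ) : F) - 1 := by simp [h]
    have e2 : ((s - a) • f) v = ((1 : Fˣ) : F) - 1 := by simp [h]
    obtain ⟨T1, hT1, -⟩ := exists_T e1
    obtain ⟨T2, hT2, -⟩ := exists_T e2
    refine ⟨T1, T2, a • f, v, smul_ne_zero ha0 hf, hv, e1, hT1, ?_, ?_⟩
    · refine ⟨T2, 1, (s - a) • f, v, smul_ne_zero (sub_ne_zero.2 has.symm) hf, hv, e2, hT2, rfl, by rw [mul_one]⟩
    · ext x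
      rw [LinearEquiv.mul_apply, hT1, hT2, hM]
      simp only [LinearMap.smul_apply, smul_eq_mul, map_add, map_smul, h, mul_zero, add_zero]
      rw [add_assoc, ← add_smul]
      congr 2
      ring
  | succ k ih =>
    intro s M hM
    obtain ⟨a, ha0, has⟩ := exists_ne2 h4 0 s
    have e1 : (a • f) v = ((1 : Fˣ) : F) - 1 := by simp [h]
    have e2 : ((s - a) • f) v = ((1 : Fˣ) : F) - 1 := by simp [h]
    obtain ⟨T1, hT1, -⟩ := exists_T e1
    obtain ⟨T2, hT2, -⟩ := exists_T e2
    refine ⟨T1, T2, a • f, v, smul_ne_zero ha0 hf, hv, e1, hT1, ih (s - a) T2 (fun x => by rw [hT2]; rfl), ?_⟩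
    ext x
    rw [LinearEquiv.mul_apply, hT1, hT2, hM]
    simp only [LinearMap.smul_apply, smul_eq_mul, map_add, map_smul, h, mul_zero, add_zero]
    rw [add_assoc, ← add_smul]
    congr 2
    ring

/-- the scalar `μ` is a product of `n` diagonal reflections of determinant `μ ≠ 1` -/
theorem GP_diag {μ : Fˣ} (hμ : μ ≠ 1) {n : ℕ} (b : Basis (Fin n) F V) (s : Finset (Fin n)) :
    ∃ M : V ≃ₗ[F] V, GP μ s.card M ∧ ∀ j, M (b j) = if j ∈ s then (μ : F) • b j else b j := by
  classical
  induction s using Finset.induction_on with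
  | empty => exact ⟨1, rfl, fun j => by simp⟩
  | insert i s hi ih =>
    obtain ⟨P, hP, hP2⟩ := ih
    have hμ1 : (μ : F) - 1 ≠ 0 := fun h => hμ (by ext; simpa using sub_eq_zero.1 h)
    have e1 : (((μ : F) - 1) • b.coord i) (b i) = (μ : F) - 1 := by simp
    obtain ⟨T, hT, -⟩ := exists_T e1
    refine ⟨T * P, ?_, ?_⟩
    · rw [Finset.card_insert_of_notMem hi]
      refine ⟨T, P, _, b i, ?_, b.ne_zero i, e1, hT, hP, rfl⟩
      intro h
      rw [h] at e1
      exact hμ1 (by simpa using e1.symm)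
    · intro j
      rw [LinearEquiv.mul_apply, hP2, hT]
      by_cases hji : j = i
      · subst hji
        simp [hi, sub_smul]
      · have h1 : (b.coord i) (b j) = 0 := by simp [Finsupp.single_eq_of_ne hji, Ne.symm hji]
        by_cases hjs : j ∈ s
        · rw [if_pos hjs, if_pos (Finset.mem_insert_of_mem hjs), map_smul, LinearMap.smul_apply, h1]
          simp
        · rw [if_neg hjs, if_neg (by simp [hji, hjs]), LinearMap.smul_apply, h1]
          simp

theorem GP_scalar [Fintype F] (h4 : 4 ≤ Fintype.card F) (h3 : 3 ≤ finrank F V) (μ : Fˣ) {f : Dual F V} {v : V}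
    (hf : f ≠ 0) (hv : v ≠ 0) (hfv : f v = (μ : F) - 1) : GP μ (finrank F V) (sc V μ) := by
  by_cases hμ : μ = 1
  · subst hμ
    obtain ⟨k, hk⟩ : ∃ k, finrank F V = k + 2 := ⟨finrank F V - 2, by omega⟩
    rw [hk]
    refine GP_chain h4 hf hv (by simpa using hfv) k 0 _ fun x => ?_
    change ((1 : Fˣ) : F) • x = _
    simp
  · obtain ⟨M, hM, hM2⟩ := GP_diag hμ (finBasis F V) Finset.univ
    rw [Finset.card_univ, Fintype.card_fin] at hM
    have : M = sc V μ := by
      apply LinearEquiv.toLinearMap_injective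
      apply (finBasis F V).ext
      intro j
      rw [LinearEquiv.coe_coe, hM2, if_pos (Finset.mem_univ j)]
      rfl
    rwa [this] at hM

/-- restriction to the kernel of an invariant functional -/
theorem restr {η : Dual F V} {S : V ≃ₗ[F] V} (hS : ∀ x, η (S x) = η x) :
    ∃ SW : (LinearMap.ker η) ≃ₗ[F] (LinearMap.ker η), (∀ w, (SW w : V) = S w) ∧
      LinearEquiv.det SW = LinearEquiv.det S := by
  have he : LinearMap.ker η ≤ (LinearMap.ker η).comap S.toLinearMap := by
    intro x hx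
    rw [Submodule.mem_comap, LinearMap.mem_ker, LinearEquiv.coe_coe, hS]
    exact hx
  have he' : ∀ x ∈ LinearMap.ker η, S.toLinearMap x ∈ LinearMap.ker η := he
  have hinj : Function.Injective (S.toLinearMap.restrict he') := by
    intro x y hxy
    apply Subtype.ext
    apply S.injective
    simpa using congrArg Subtype.val hxy
  refine ⟨LinearEquiv.ofInjectiveEndo (S.toLinearMap.restrict he') hinj, fun w => rfl, ?_⟩
  ext
  rw [LinearEquiv.coe_det, LinearEquiv.coe_det]
  have h1 := LinearMap.det_eq_det_mul_det (LinearMap.ker η) S.toLinearMap he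
  have h2 : (LinearMap.ker η).mapQ (LinearMap.ker η) S.toLinearMap he = LinearMap.id := by
    apply Submodule.linearMap_qext
    ext x
    rw [LinearMap.comp_apply, LinearMap.comp_apply, Submodule.mkQ_apply, Submodule.mapQ_apply, LinearMap.id_apply,
      Submodule.Quotient.eq, LinearMap.mem_ker, map_sub, LinearEquiv.coe_coe, hS, sub_self]
  rw [h2, LinearMap.det_id, mul_one] at h1
  rw [h1]
  rfl

/-- product of dilatransvections with prescribed vectors; only the last one may be trivial -/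
def RP (μ : Fˣ) {V : Type u} [AddCommGroup V] [Module F V] : List V → (V ≃ₗ[F] V) → Prop
  | [], M => M = 1
  | v :: L, M => ∃ (T P : V ≃ₗ[F] V) (f : Dual F V), (L ≠ [] → f ≠ 0) ∧ v ≠ 0 ∧ f v = (μ : F) - 1 ∧
      (∀ x, T x = x + f x • v) ∧ RP μ L P ∧ M = T * P

theorem GP_of_RP [Fintype F] (h4 : 4 ≤ Fintype.card F) {μ : Fˣ} : ∀ (L : List V) (k : ℕ) (M : V ≃ₗ[F] V),
    L.length = k + 2 → RP μ L M → GP μ (k + 2) M
  | [], k, M, h, _ => by simp at h
  | [a], k, M, h, _ => by simp at h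
  | [a, b], k, M, h, hR => by
      obtain ⟨T, P, f, hf, hv, hfv, hT, ⟨T', P', f', -, hv', hfv', hT', hP', rfl⟩, rfl⟩ := hR
      have hk : k = 0 := by simpa using h.symm
      subst hk
      have hP1 : P' = 1 := hP'
      subst hP1
      have hf0 := hf (by simp)
      by_cases h0 : f' = 0
      · have hμ : μ = 1 := by
          rw [h0, LinearMap.zero_apply] at hfv'
          ext
          simpa using (sub_eq_zero.1 hfv'.symm)
        subst hμ
        refine GP_chain h4 hf0 hv (by simpa using hfv) 0 1 _ fun x => ?_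
        rw [mul_one, LinearEquiv.mul_apply, hT', h0, hT]
        simp
      · exact ⟨T, _, f, a, hf0, hv, hfv, hT, ⟨T', 1, f', b, h0, hv', hfv', hT', rfl, rfl⟩, rfl⟩
  | a :: b :: c :: L, k, M, h, hR => by
      obtain ⟨T, P, f, hf, hv, hfv, hT, hP, rfl⟩ := hR
      obtain ⟨k', rfl⟩ : ∃ k', k = k' + 1 := ⟨L.length, by simpa using h.symm⟩
      exact ⟨T, P, f, a, hf (by simp), hv, hfv, hT, GP_of_RP h4 (b :: c :: L) k' P (by simpa using h) hP, rfl⟩

theorem lift {μ : Fˣ} {η : Dual F V} {x₀ : V} (hx : η x₀ = 1) :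
    ∀ (L : List (LinearMap.ker η)) (P : (LinearMap.ker η) ≃ₗ[F] (LinearMap.ker η)) (s₀ : LinearMap.ker η),
      RP μ L P → s₀ ∈ Submodule.span F {x | x ∈ L} →
      ∃ P' : V ≃ₗ[F] V, RP μ (L.map Subtype.val) P' ∧ (∀ w : LinearMap.ker η, P' w = P w) ∧
        P' x₀ = x₀ + s₀
  | [], P, s₀, h, hs => by
      have h1 : P = 1 := h
      have h2 : s₀ = 0 := by simpa using hs
      subst h1 h2
      exact ⟨1, rfl, fun w => rfl, by simp⟩
  | u :: L, P, s₀, h, hs => by
      obtain ⟨T, Q, f, hf, hv, hfv, hT, hQ, rfl⟩ := h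
      have hset : {x | x ∈ u :: L} = insert u {x | x ∈ L} := by
        ext x
        simp
      rw [hset, Submodule.mem_span_insert] at hs
      obtain ⟨a, s₁, hs1, rfl⟩ := hs
      obtain ⟨Q', hQ', hQ1, hQ2⟩ := lift hx L Q s₁ hQ hs1
      -- projection
      let π : V →ₗ[F] LinearMap.ker η := LinearMap.codRestrict (LinearMap.ker η)
        (LinearMap.id - LinearMap.toSpanSingleton F V x₀ ∘ₗ η) (by
          intro c
          rw [LinearMap.mem_ker]
          simp [hx])
      have hπ : ∀ w : LinearMap.ker η, π w = w := by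
        intro w
        apply Subtype.ext
        change (w : V) - η w • x₀ = w
        rw [LinearMap.mem_ker.1 w.2]
        simp
      have hπ0 : π x₀ = 0 := by
        apply Subtype.ext
        change x₀ - η x₀ • x₀ = 0
        rw [hx]
        simp
      let Φ : Dual F V := f ∘ₗ π + (a - f s₁) • η
      have hΦ : ∀ w : LinearMap.ker η, Φ w = f w := by
        intro w
        change f (π w) + (a - f s₁) * η w = f w
        rw [hπ, LinearMap.mem_ker.1 w.2]
        simp
      have hΦ0 : Φ x₀ = a - f s₁ := by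
        change f (π x₀) + (a - f s₁) * η x₀ = _
        rw [hπ0, hx]
        simp
      obtain ⟨T', hT', -⟩ := exists_T (μ := μ) (f := Φ) (v := (u : V)) (by rw [hΦ, hfv])
      refine ⟨T' * Q', ?_, ?_, ?_⟩
      · refine ⟨T', Q', Φ, ?_, ?_, by rw [hΦ, hfv], hT', hQ', rfl⟩
        · intro hL h0
          apply hf (by intro h; apply hL; rw [h]; rfl)
          ext w
          rw [← hΦ, h0]
          rfl
        · intro h
          exact hv (Subtype.ext h)
      · intro w
        rw [LinearEquiv.mul_apply, hQ1, hT', hΦ, LinearEquiv.mul_apply, hT]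
        rfl
      · rw [LinearEquiv.mul_apply, hQ2, hT', map_add, hΦ, hΦ0]
        push_cast
        rw [show a - f s₁ + f s₁ = a by ring]
        abel

/-- the step: peel off one factor -/
theorem step {μ : Fˣ} {M : V ≃ₗ[F] V} (hM : NS M) :
    ∃ (η : Dual F V), η ≠ 0 ∧ ∃ (u : V) (T S : V ≃ₗ[F] V) (f : Dual F V), η u = 1 ∧ f ≠ 0 ∧
      f u = (μ : F) - 1 ∧ (∀ x, T x = x + f x • u) ∧ LinearEquiv.det T = μ ∧ M = T * S ∧ (∀ x, η (S x) = η x) ∧
      (3 ≤ finrank F V → ∃ w, η w = 0 ∧ ∀ c : F, S w ≠ c • w) := by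
  obtain ⟨u₀, hu₀⟩ := hM
  have hu1 : u₀ ∉ Submodule.span F {M u₀} := by
    intro h
    obtain ⟨c, hc⟩ := Submodule.mem_span_singleton.1 h
    by_cases hc0 : c = 0
    · rw [hc0, zero_smul] at hc
      apply hu₀ 0
      rw [← hc, map_zero, zero_smul]
    · apply hu₀ c⁻¹
      rw [← hc, smul_smul]
      nth_rewrite 1 [hc]
      rw [inv_mul_cancel₀ hc0, one_smul]
  obtain ⟨η, hη1, hη2⟩ := Submodule.exists_dual_map_eq_bot_of_notMem hu1 inferInstance
  set w₀ : V := M u₀ with hw₀
  have hηw : η w₀ = 0 := by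
    have : η w₀ ∈ (Submodule.span F {w₀}).map η := Submodule.mem_map_of_mem (Submodule.mem_span_singleton_self _)
    rw [hη2] at this
    simpa using this
  set θ : Dual F V := η ∘ₗ (M⁻¹ : V ≃ₗ[F] V).toLinearMap with hθ
  have hθM : ∀ x, θ (M x) = η x := by
    intro x
    change η (M⁻¹ (M x)) = η x
    congr 1
    rw [← LinearEquiv.mul_apply, inv_mul_cancel]
    rfl
  have hθw : θ w₀ ≠ 0 := by rw [hw₀, hθM]; exact hη1
  have hη0 : η ≠ 0 := by rintro h; exact hη1 (by rw [h]; rfl)
  obtain ⟨a, ha⟩ : ∃ a, η a = 1 := ⟨(η u₀)⁻¹ • u₀, by rw [map_smul, smul_eq_mul, inv_mul_cancel₀ hη1]⟩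
  -- base choice of `u`
  have hub : ∃ ub, η ub = 1 ∧ θ ub = ((μ⁻¹ : Fˣ) : F) := by
    refine ⟨a + ((((μ⁻¹ : Fˣ) : F) - θ a) * (θ w₀)⁻¹) • w₀, ?_, ?_⟩
    · rw [map_add, map_smul, hηw, ha]; simp
    · rw [map_add, map_smul, smul_eq_mul, mul_assoc, inv_mul_cancel₀ hθw]; ring
  obtain ⟨ub, hub1, hub2⟩ := hub
  -- what every choice of `u` gives
  have key : ∀ u, η u = 1 → θ u = ((μ⁻¹ : Fˣ) : F) → ∃ (T S : V ≃ₗ[F] V) (f : Dual F V), f ≠ 0 ∧
      f u = (μ : F) - 1 ∧ (∀ x, T x = x + f x • u) ∧ LinearEquiv.det T = μ ∧ M = T * S ∧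
      (∀ x, η (S x) = η x) ∧ (∀ w, η w = 0 → S w = M w - η (M w) • u) := by
    intro u hu1 hu2
    set f : Dual F V := (-(μ : F)) • (θ - η) with hf
    have hfu : f u = (μ : F) - 1 := by
      rw [hf, LinearMap.smul_apply, LinearMap.sub_apply, hu1, hu2, smul_eq_mul]
      have := μ.mul_inv
      linear_combination (-1 : F) * this
    have hf0 : f ≠ 0 := by
      intro h
      have h1 : f w₀ = 0 := by rw [h]; rfl
      rw [hf, LinearMap.smul_apply, LinearMap.sub_apply, hηw, smul_eq_mul, sub_zero] at h1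
      exact (mul_ne_zero (neg_ne_zero.2 μ.ne_zero) hθw) h1
    obtain ⟨T, hT, hTd⟩ := exists_T hfu
    have hTinv : ∀ y, T (y + (θ y - η y) • u) = y := by
      intro y
      rw [hT, map_add, map_smul, hfu]
      have h1 : f y = (-(μ : F)) * (θ y - η y) := rfl
      rw [h1, add_assoc, ← add_smul, smul_eq_mul]
      have h2 : (θ y - η y) + (-(μ : F) * (θ y - η y) + (θ y - η y) * ((μ : F) - 1)) = 0 := by ring
      rw [h2, zero_smul, add_zero]
    have hS : ∀ x, (T⁻¹ * M) x = M x + (θ (M x) - η (M x)) • u := by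
      intro x
      rw [LinearEquiv.mul_apply]
      apply T.injective
      rw [hTinv, ← LinearEquiv.mul_apply, mul_inv_cancel]
      rfl
    refine ⟨T, T⁻¹ * M, f, hf0, hfu, hT, hTd, by rw [mul_inv_cancel_left], ?_, ?_⟩
    · intro x
      rw [hS, map_add, map_smul, hu1, hθM, smul_eq_mul]
      ring
    · intro w hw
      rw [hS, hθM, hw, zero_sub, neg_smul, sub_eq_add_neg]
  by_cases h3 : 3 ≤ finrank F V
  swap
  · obtain ⟨T, S, f, h⟩ := key ub hub1 hub2
    exact ⟨η, hη0, ub, T, S, f, hub1, h.1, h.2.1, h.2.2.1, h.2.2.2.1, h.2.2.2.2.1, h.2.2.2.2.2.1,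
      fun h' => absurd h' h3⟩
  -- a vector `k` killed by both functionals
  obtain ⟨k, hk0, hk1, hk2⟩ : ∃ k, k ≠ 0 ∧ η k = 0 ∧ θ k = 0 := by
    have hlt : finrank F (F × F) < finrank F V := by
      rw [Module.finrank_prod, Module.finrank_self]; omega
    obtain ⟨k, hk, hk0⟩ := Submodule.exists_mem_ne_zero_of_ne_bot
      (LinearMap.ker_ne_bot_of_finrank_lt (f := η.prod θ) hlt)
    have h1 : (η k, θ k) = (0, 0) := hk
    rw [Prod.mk.injEq] at h1
    exact ⟨k, hk0, h1.1, h1.2⟩
  obtain ⟨w, hw1, hw2, hw3⟩ : ∃ w, η w = 0 ∧ η (M w) ≠ 0 ∧ ∀ t : F, w ≠ t • k := by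
    have hw0k : ∀ t : F, w₀ ≠ t • k := by
      intro t h
      apply hθw
      rw [h, map_smul, hk2, smul_zero]
    by_cases c1 : η (M w₀) = 0
    · by_cases c2 : η (M k) = 0
      · by_contra hcon
        push Not at hcon
        have hker : ∀ w, η w = 0 → η (M w) = 0 := by
          intro w hw
          by_contra h
          obtain ⟨t, ht⟩ := hcon w hw h
          apply h
          rw [ht, map_smul, map_smul, c2, smul_zero]
        -- `M` preserves the kernel, hence so does its inverse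
        obtain ⟨c, hc⟩ : ∃ c : F, ∀ x, η (M x) = c * η x := by
          refine ⟨η (M a), fun x => ?_⟩
          have h1 : η (x - η x • a) = 0 := by rw [map_sub, map_smul, ha]; simp
          have h2 := hker _ h1
          rw [map_sub, map_smul, map_sub, map_smul] at h2
          rw [sub_eq_zero.1 h2, smul_eq_mul, mul_comm]
        have h3 := hc u₀
        rw [← hw₀, hηw] at h3
        have hc0 : c = 0 := by
          rcases mul_eq_zero.1 h3.symm with h | h
          · exact h
          · exact absurd h hη1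
        apply hη0
        ext x
        have := hc (M⁻¹ x)
        rw [hc0, zero_mul, ← LinearEquiv.mul_apply, mul_inv_cancel] at this
        simpa using this
      · refine ⟨w₀ + k, by rw [map_add, hηw, hk1, add_zero], by rw [map_add, map_add, c1, zero_add]; exact c2, ?_⟩
        intro t h
        apply hw0k (t - 1)
        rw [sub_smul, one_smul, ← h]
        abel
    · exact ⟨w₀, hηw, c1, hw0k⟩
  obtain ⟨T, S, f, h⟩ := key ub hub1 hub2
  obtain ⟨T', S', f', h'⟩ := key (ub + k) (by rw [map_add, hub1, hk1, add_zero]) (by rw [map_add, hub2, hk2, add_zero])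
  by_cases hc : ∃ c : F, S w = c • w
  · refine ⟨η, hη0, ub + k, T', S', f', by rw [map_add, hub1, hk1, add_zero], h'.1, h'.2.1, h'.2.2.1, h'.2.2.2.1,
      h'.2.2.2.2.1, h'.2.2.2.2.2.1, fun _ => ⟨w, hw1, ?_⟩⟩
    intro c' hc'
    obtain ⟨c, hc⟩ := hc
    rw [h.2.2.2.2.2.2 w hw1] at hc
    rw [h'.2.2.2.2.2.2 w hw1, smul_add] at hc'
    have e1 : (c - c') • w = η (M w) • k := by
      rw [sub_smul, ← hc, ← hc']
      abel
    have hcc : c - c' ≠ 0 := by
      intro h0
      rw [h0, zero_smul] at e1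
      exact (smul_ne_zero hw2 hk0) e1.symm
    apply hw3 ((c - c')⁻¹ * η (M w))
    rw [mul_smul, ← e1, smul_smul, inv_mul_cancel₀ hcc, one_smul]
  · push Not at hc
    exact ⟨η, hη0, ub, T, S, f, hub1, h.1, h.2.1, h.2.2.1, h.2.2.2.1, h.2.2.2.2.1, h.2.2.2.2.2.1, fun _ => ⟨w, hw1, hc⟩⟩

theorem main (n : ℕ) : ∀ (V : Type u) [AddCommGroup V] [Module F V] [FiniteDimensional F V],
    finrank F V = n + 1 → ∀ (μ : Fˣ) (M : V ≃ₗ[F] V), (1 ≤ n → NS M) → LinearEquiv.det M = μ ^ (n + 1) →
    ∃ L : List V, L.length = n + 1 ∧ Submodule.span F {x | x ∈ L} = ⊤ ∧ RP μ L M := by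
  induction n with
  | zero =>
    intro V _ _ _ hV μ M _ hdet
    obtain ⟨v, hv0, hv⟩ := finrank_eq_one_iff'.1 hV
    obtain ⟨c, hc⟩ := hv (M v)
    have hM : ∀ x, M x = c • x := by
      intro x
      obtain ⟨a, rfl⟩ := hv x
      rw [map_smul, ← hc, smul_comm]
    have hcμ : c = μ := by
      have h1 : M.toLinearMap = c • LinearMap.id := by
        ext x
        exact hM x
      have h2 : ((LinearEquiv.det M : Fˣ) : F) = c := by
        rw [LinearEquiv.coe_det, h1, LinearMap.det_smul, hV]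
        simp
      rw [← h2, hdet]
      simp
    obtain ⟨ψ, hψ⟩ : ∃ ψ : Dual F V, ψ v ≠ 0 := by
      by_contra h
      push Not at h
      exact hv0 ((Module.forall_dual_apply_eq_zero_iff F v).1 h)
    have e1 : ((((μ : F) - 1) * (ψ v)⁻¹) • ψ) v = (μ : F) - 1 := by
      rw [LinearMap.smul_apply, smul_eq_mul, mul_assoc, inv_mul_cancel₀ hψ, mul_one]
    obtain ⟨T, hT, -⟩ := exists_T e1
    refine ⟨[v], rfl, ?_, T, 1, _, fun h => absurd rfl h, hv0, e1, hT, rfl, ?_⟩
    · rw [eq_top_iff]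
      intro x _
      obtain ⟨a, rfl⟩ := hv x
      exact Submodule.smul_mem _ _ (Submodule.subset_span (by simp))
    · rw [mul_one]
      ext x
      obtain ⟨a, rfl⟩ := hv x
      rw [hM, hT, map_smul, e1, hcμ, smul_smul, ← add_smul, smul_eq_mul]
      congr 1
      ring
  | succ n ih =>
    intro V _ _ _ hV μ M hNS hdet
    obtain ⟨η, hη0, u, T, S, f, hu, hf0, hfu, hT, hTd, hMTS, hS, hns⟩ := step (μ := μ) (hNS (by omega))
    obtain ⟨SW, hSW, hSWd⟩ := restr hS
    have hW : finrank F (LinearMap.ker η) = n + 1 := by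
      have := Dual.finrank_ker_add_one_of_ne_zero hη0
      omega
    have hd : LinearEquiv.det SW = μ ^ (n + 1) := by
      rw [hSWd]
      have h1 : LinearEquiv.det M = LinearEquiv.det T * LinearEquiv.det S := by rw [hMTS, map_mul]
      rw [hdet, hTd, pow_succ' μ (n + 1)] at h1
      exact (mul_left_cancel h1).symm
    obtain ⟨L, hL1, hL2, hL3⟩ := ih (LinearMap.ker η) hW μ SW (fun hn => by
      obtain ⟨w, hw, hw2⟩ := hns (by omega)
      refine ⟨⟨w, hw⟩, fun c hc => hw2 c ?_⟩
      have := congrArg Subtype.val hc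
      rw [hSW] at this
      exact this) hd
    obtain ⟨P', hP1, hP2, hP3⟩ := lift hu L SW ⟨S u - u, by rw [LinearMap.mem_ker, map_sub, hS, sub_self]⟩ hL3
      (by rw [hL2]; trivial)
    have hPS : P' = S := by
      ext x
      have hx : η (x - η x • u) = 0 := by rw [map_sub, map_smul, hu]; simp
      have e1 : x = ((⟨x - η x • u, hx⟩ : LinearMap.ker η) : V) + η x • u := by simp
      rw [e1, map_add, map_add, hP2, hSW, map_smul, map_smul, hP3]
      simp
    subst hPS
    refine ⟨u :: L.map Subtype.val, by simp [hL1], ?_, T, P', f, fun _ => hf0, ?_, hfu, hT, hP1, hMTS⟩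
    · rw [eq_top_iff]
      intro x _
      have hx : η (x - η x • u) = 0 := by rw [map_sub, map_smul, hu]; simp
      have e1 : x = ((⟨x - η x • u, hx⟩ : LinearMap.ker η) : V) + η x • u := by simp
      rw [e1]
      refine Submodule.add_mem _ ?_ (Submodule.smul_mem _ _ (Submodule.subset_span (by simp)))
      have h1 : (⟨x - η x • u, hx⟩ : LinearMap.ker η) ∈ Submodule.span F {x | x ∈ L} := by rw [hL2]; trivial
      have h2 := Submodule.mem_map_of_mem (f := (LinearMap.ker η).subtype) h1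
      rw [Submodule.map_span] at h2
      refine Submodule.span_mono ?_ h2
      rintro _ ⟨y, hy, rfl⟩
      exact List.mem_cons_of_mem _ (List.mem_map.2 ⟨y, hy, rfl⟩)
    · rintro rfl
      rw [map_zero] at hu
      exact zero_ne_one hu

theorem R1 [Fintype F] (h4 : 4 ≤ Fintype.card F) (h3 : 3 ≤ finrank F V) {A : V ≃ₗ[F] V}
    (hA : NS A) (hs : Slow A) (hd : LinearEquiv.det A = 1) :
    (∀ M : V ≃ₗ[F] V, NS M → LinearEquiv.det M = 1 → IP A (List.replicate (finrank F V) 1) M) ∧
    ∃ z : Fˣ, IP A (List.replicate (finrank F V) 1) (sc V z) := by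
  obtain ⟨l, hl⟩ := hs
  have hl0 : l ≠ 0 := by
    rintro rfl
    rw [zero_smul, sub_zero, LinearEquiv.range, finrank_top] at hl
    omega
  set l' : Fˣ := Units.mk0 l hl0 with hl'
  set n := finrank F V with hn
  -- normal form
  have hB : sc V l'⁻¹ * A ∈ LinearEquiv.dilatransvections F V := by
    rw [LinearEquiv.mem_dilatransvections_iff_finrank]
    refine le_trans (Submodule.finrank_mono ?_) hl
    rintro _ ⟨x, rfl⟩
    refine ⟨l⁻¹ • x, ?_⟩
    change A (l⁻¹ • x) - l • (l⁻¹ • x) = l⁻¹ • (A x) - x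
    rw [map_smul, smul_smul, mul_inv_cancel₀ hl0, one_smul]
  obtain ⟨f, v, hfv⟩ := hB
  have hA2 : ∀ x, A x = (l' : F) • (x + f x • v) := by
    intro x
    have h1 := LinearMap.congr_fun hfv x
    change l⁻¹ • A x = x + f x • v at h1
    rw [← h1, smul_smul]
    change A x = (l * l⁻¹) • A x
    rw [mul_inv_cancel₀ hl0, one_smul]
  have hf0 : f ≠ 0 := by
    rintro rfl
    obtain ⟨x, hx⟩ := hA
    apply hx l'
    rw [hA2]
    simp
  have hv0 : v ≠ 0 := by
    rintro rfl
    obtain ⟨x, hx⟩ := hA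
    apply hx l'
    rw [hA2]
    simp
  set μ : Fˣ := (l' ^ n)⁻¹ with hμ
  have hdet : f v = (μ : F) - 1 := by
    have h1 : ((LinearEquiv.det A : Fˣ) : F) = l ^ n * (1 + f v) := by
      have : A.toLinearMap = l • LinearMap.transvection f v := by
        ext x
        exact hA2 x
      rw [LinearEquiv.coe_det, this, LinearMap.det_smul, LinearMap.transvection.det]
    rw [hd, Units.val_one] at h1
    have h2 : (μ : F) = (l ^ n)⁻¹ := by
      rw [hμ, Units.val_inv_eq_inv_val, Units.val_pow_eq_pow_val, hl', Units.val_mk0]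
    rw [h2, eq_sub_iff_add_eq, eq_comm]
    exact inv_eq_of_mul_eq_one_right (by rw [add_comm (f v)]; exact h1.symm)
  constructor
  · intro M hM hMd
    have h1 := main (n - 1) V (by omega) μ (sc V (l' ^ n)⁻¹ * M) ?_ ?_
    · obtain ⟨L, hL1, -, hL3⟩ := h1
      have h2 := GP_of_RP h4 L (n - 2) _ (by omega) hL3
      have h3' := IP_of_GP h3 hf0 hv0 hdet hA2 _ _ h2
      rw [show n - 2 + 2 = n by omega] at h3'
      convert h3' using 1
      ext x
      change M x = ((l' ^ n : Fˣ) : F) • ((((l' ^ n)⁻¹ : Fˣ) : F) • M x)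
      rw [smul_smul, Units.mul_inv, one_smul]
    · rintro -
      obtain ⟨x, hx⟩ := hM
      refine ⟨x, fun c hc => hx (((l' ^ n : Fˣ) : F) * c) ?_⟩
      change (((l' ^ n)⁻¹ : Fˣ) : F) • M x = c • x at hc
      rw [mul_smul, ← hc, smul_smul, Units.mul_inv, one_smul]
    · rw [map_mul, hMd, mul_one, show n - 1 + 1 = n by omega, hμ]
      ext
      rw [LinearEquiv.coe_det]
      have : ((sc V (l' ^ n)⁻¹ : V ≃ₗ[F] V) : V →ₗ[F] V) = (((l' ^ n)⁻¹ : Fˣ) : F) • LinearMap.id := by
        ext x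
        rfl
      rw [this, LinearMap.det_smul, LinearMap.det_id, mul_one, ← hn]
      simp
  · refine ⟨l' ^ n * μ, ?_⟩
    have h1 := GP_scalar h4 h3 μ hf0 hv0 hdet
    have h2 := IP_of_GP h3 hf0 hv0 hdet hA2 _ _ h1
    convert h2 using 1
    ext x
    change ((l' ^ n * μ : Fˣ) : F) • x = ((l' ^ n : Fˣ) : F) • ((μ : F) • x)
    rw [smul_smul, Units.val_mul]

end Cfsg.Agent.Lib.CovR1
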