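import Mathlib
import Cfsg.Agent.Lib.CovBas2

set_option autoImplicit false
set_option linter.unusedSectionVars false
set_option linter.unusedVariables false

/-!
Similarities of block sums with scalar blocks (for S2483, piece SC3).
-/

namespace Cfsg.Agent.Lib.CovSC3

open Module Polynomial Cfsg.Agent.Lib.CyclicProd Cfsg.Agent.Lib.CovDefs

universe u

variable {F : Type u} [Field F]

section general

variable {V W X Y : Type u} [AddCommGroup V] [Module F V] [AddCommGroup W] [Module F W]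
  [AddCommGroup X] [Module F X] [AddCommGroup Y] [Module F Y]

theorem sc_apply (l : Fˣ) (x : V) : sc V l x = (l : F) • x := rfl

theorem sim_bs {A : V ≃ₗ[F] V} {A' : X ≃ₗ[F] X} {B : W ≃ₗ[F] W} {B' : Y ≃ₗ[F] Y} (h : Sim A A') (h' : Sim B B') :
    Sim (bs A B) (bs A' B') := by
  obtain ⟨e, he⟩ := h
  obtain ⟨e', he'⟩ := h'
  refine ⟨e.prodCongr e', fun x => ?_⟩
  show (e (A x.1), e' (B x.2)) = (A' (e x.1), B' (e' x.2))
  rw [he, he']

theorem sim_comm (A : V ≃ₗ[F] V) (B : W ≃ₗ[F] W) : Sim (bs A B) (bs B A) :=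
  ⟨LinearEquiv.prodComm F V W, fun _ => rfl⟩

theorem sim_assoc (A : V ≃ₗ[F] V) (B : W ≃ₗ[F] W) (D : X ≃ₗ[F] X) : Sim (bs (bs A B) D) (bs A (bs B D)) :=
  ⟨LinearEquiv.prodAssoc F V W X, fun _ => rfl⟩

theorem sim_sc [FiniteDimensional F V] [FiniteDimensional F W] (h : finrank F V = finrank F W) (l : Fˣ) :
    Sim (sc V l) (sc W l) := by
  refine ⟨LinearEquiv.ofFinrankEq V W h, fun x => ?_⟩
  rw [sc_apply, sc_apply, map_smul]

theorem bs_sc_sc (l : Fˣ) : bs (sc V l) (sc W l) = sc (V × W) l := rfl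

theorem sc_mul (l m : Fˣ) : sc V l * sc V m = sc V (l * m) := by
  apply LinearEquiv.ext
  intro x
  show (l : F) • ((m : F) • x) = ((l * m : Fˣ) : F) • x
  rw [smul_smul, Units.val_mul]

theorem sc_one : sc V (1 : Fˣ) = 1 := by
  apply LinearEquiv.ext
  intro x
  show ((1 : Fˣ) : F) • x = x
  rw [Units.val_one, one_smul]

theorem sc_comm (l : Fˣ) (A : V ≃ₗ[F] V) : sc V l * A = A * sc V l := by
  apply LinearEquiv.ext
  intro x
  show (l : F) • A x = A ((l : F) • x)
  rw [map_smul]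

theorem sc_det [FiniteDimensional F V] (l : Fˣ) : LinearEquiv.det (sc V l) = l ^ finrank F V := by
  apply Units.ext
  rw [LinearEquiv.coe_det, Units.val_pow_eq_pow_val]
  have h1 : (sc V l : V ≃ₗ[F] V).toLinearMap = (l : F) • LinearMap.id := rfl
  rw [h1, LinearMap.det_smul, LinearMap.det_id, mul_one]

/-- similar operators on the same space are conjugate -/
theorem sim_conj {A B : V ≃ₗ[F] V} (h : Sim A B) : ∃ g : V ≃ₗ[F] V, B = g * A * g⁻¹ := by
  obtain ⟨e, he⟩ := h
  refine ⟨e, ?_⟩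
  rw [eq_mul_inv_iff_mul_eq]
  apply LinearEquiv.ext
  intro x
  exact (he x).symm

/-- products of conjugates of a conjugate -/
theorem wp_conj_left {A B M : V ≃ₗ[F] V} {k : ℕ} (h : WP A k M) {g : V ≃ₗ[F] V} (hB : B = g * A * g⁻¹) :
    WP B k M := by
  have h1 : ∀ x, g (A x) = B (g x) := by
    intro x
    rw [hB]
    show g (A x) = g (A (g⁻¹ (g x)))
    rw [show g⁻¹ (g x) = x from g.symm_apply_apply x]
  have h2 := ((WP.of_sim g h1).1 h).conj g⁻¹
  have h3 : g⁻¹ * ((g.symm.trans M).trans g) * g⁻¹⁻¹ = M := by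
    apply LinearEquiv.ext
    intro x
    show g.symm (g (M (g.symm (g⁻¹⁻¹ x)))) = M x
    rw [LinearEquiv.symm_apply_apply, inv_inv, LinearEquiv.symm_apply_apply]
  rwa [h3] at h2

/-- from similar operators on the same space -/
theorem wp_sim_left {A B M : V ≃ₗ[F] V} {k : ℕ} (h : WP A k M) (hs : Sim A B) : WP B k M := by
  obtain ⟨g, hg⟩ := sim_conj hs
  exact wp_conj_left h hg

/-- scalar targets -/
theorem wp_sim_sc {A : V ≃ₗ[F] V} {B : W ≃ₗ[F] W} {k : ℕ} {z : Fˣ} (hs : Sim A B) (h : WP A k (sc V z)) :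
    WP B k (sc W z) := by
  obtain ⟨e, he⟩ := hs
  have h1 := (WP.of_sim e he).1 h
  have h2 : (e.symm.trans (sc V z)).trans e = sc W z := by
    apply LinearEquiv.ext
    intro x
    show e ((z : F) • e.symm x) = (z : F) • x
    rw [map_smul, LinearEquiv.apply_symm_apply]
  rwa [h2] at h1

/-- scaling -/
theorem ip_scale {A M : V ≃ₗ[F] V} (c : Fˣ) {cs : List Fˣ} (h : IP A cs M) :
    IP (sc V c * A) cs (sc V (c ^ cs.length) * M) := by
  induction cs generalizing M with
  | nil =>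
    have h : M = 1 := h
    subst h
    show sc V (c ^ 0) * 1 = 1
    rw [pow_zero, sc_one, one_mul]
  | cons d cs ih =>
    obtain ⟨g, P, hg, hP, rfl⟩ := h
    refine ⟨g, _, hg, ih hP, ?_⟩
    rw [List.length_cons, pow_succ', ← sc_mul]
    have h1 : g * (sc V c * A) * g⁻¹ = sc V c * (g * A * g⁻¹) := by
      rw [sc_comm c A, ← mul_assoc, mul_assoc (g * A), sc_comm c g⁻¹, ← mul_assoc, sc_comm c (g * A * g⁻¹)]
    have h2 : g * A * g⁻¹ * (sc V (c ^ cs.length) * P) = sc V (c ^ cs.length) * (g * A * g⁻¹ * P) := by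
      rw [← mul_assoc, ← sc_comm, mul_assoc]
    rw [h1, mul_assoc (sc V c) (g * A * g⁻¹), h2, mul_assoc]

theorem wp_scale {A M : V ≃ₗ[F] V} (c : Fˣ) {k : ℕ} (h : WP A k M) : WP (sc V c * A) k (sc V (c ^ k) * M) := by
  obtain ⟨cs, rfl, h⟩ := h
  exact ⟨cs, rfl, ip_scale c h⟩

/-- powers of scalars -/
theorem wp_sc (c : Fˣ) (k : ℕ) : WP (sc V c) k (sc V (c ^ k)) := by
  induction k with
  | zero => rw [pow_zero, sc_one]; exact WP.zero _
  | succ k ih => rw [pow_succ, ← sc_mul]; exact ih.mul (WP.one _)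

theorem wp_sc1 (k : ℕ) : WP (sc V (1 : Fˣ)) k (1 : V ≃ₗ[F] V) := by
  have h := wp_sc (V := V) (1 : Fˣ) k
  rw [one_pow] at h
  rwa [sc_one] at h ⊢

/-- scalar blocks of the same size -/
theorem sim_bs_sc [FiniteDimensional F V] [FiniteDimensional F W] (h : finrank F V = finrank F W) (l : Fˣ)
    (B : X ≃ₗ[F] X) : Sim (bs (sc V l) B) (bs (sc W l) B) := sim_bs (sim_sc h l) (Sim.refl B)

end general

section cyc

variable {V : Type u} [AddCommGroup V] [Module F V] [FiniteDimensional F V]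

/-- one dimensional cyclic operators -/
theorem cyc_sc (l : Fˣ) : Cyc (sc F l) (X - C (l : F)) := by
  refine ⟨monic_X_sub_C _, by rw [natDegree_X_sub_C, finrank_self], ⟨1, ?_⟩, ?_⟩
  · intro W h1 _
    rw [eq_top_iff]
    intro x _
    have := W.smul_mem x h1
    simpa using this
  · rw [map_sub, aeval_X, aeval_C]
    apply LinearMap.ext
    intro x
    show (l : F) • x - (l : F) • x = 0
    rw [sub_self]

/-- scaling of cyclic operators -/
theorem cyc_scale {A : V ≃ₗ[F] V} {p : F[X]} (h : Cyc A p) (c : Fˣ) : Cyc (sc V c * A) (p.scaleRoots c) := by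
  obtain ⟨hm, hd, ⟨v, hv⟩, h0⟩ := h
  refine ⟨(monic_scaleRoots_iff _).2 hm, by rw [natDegree_scaleRoots, hd], ⟨v, ?_⟩, ?_⟩
  · intro W h1 h2
    apply hv W h1
    intro w hw
    have h3 := h2 w hw
    have h4 := W.smul_mem ((c⁻¹ : Fˣ) : F) h3
    have h5 : ((c⁻¹ : Fˣ) : F) • (sc V c * A).toLinearMap w = A w := by
      show ((c⁻¹ : Fˣ) : F) • ((c : F) • A w) = A w
      rw [smul_smul, Units.inv_mul, one_smul]
    rw [h5] at h4
    exact h4
  · have h1 := scaleRoots_aeval_eq_zero (r := (c : F)) h0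
    exact h1

end cyc

end Cfsg.Agent.Lib.CovSC3
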