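import Mathlib
import Cfsg.Agent.Lib.CovSC3a
import Cfsg.Agent.Lib.CovBas3
import Cfsg.Agent.Lib.CovSTAR

set_option autoImplicit false
set_option linter.unusedSectionVars false
set_option linter.unusedVariables false

/-!
Scalars as products of conjugates of `l ⊕ C`, `C` cyclic of size three (for S2483, piece SC3).
-/

namespace Cfsg.Agent.Lib.CovSC3

open Module Polynomial Cfsg.Agent.Lib.CyclicProd Cfsg.Agent.Lib.CovDefs
open Cfsg.Agent.Lib.CovSTAR (cycW cycW3)

universe u

variable {F : Type u} [Field F]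

/-- the adjugate of a two by two operator -/
theorem cyc_adj {P : Type u} [AddCommGroup P] [Module F P] [FiniteDimensional F P] {R : P ≃ₗ[F] P} {h : F[X]}
    (hR : Cyc R h) (h2 : finrank F P = 2) : Cyc (sc P (LinearEquiv.det R) * R⁻¹) h := by
  obtain ⟨hm, hd, ⟨v, hv⟩, h0⟩ := id hR
  have hdet := hR.det
  rw [h2] at hd hdet
  have hc2 : h.coeff 2 = 1 := by rw [← hd]; exact hm
  have hev : ∀ x, R (R x) + h.coeff 1 • R x + h.coeff 0 • x = 0 := by
    intro x
    have h1 := DFunLike.congr_fun h0 x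
    rw [Polynomial.aeval_eq_sum_range, hd, Finset.sum_range_succ, Finset.sum_range_succ, Finset.sum_range_one,
      hc2, one_smul] at h1
    have h3 : h.coeff 0 • x + h.coeff 1 • R x + R (R x) = 0 := by
      simpa [pow_two] using h1
    rw [← h3]; abel
  have hdv : (LinearEquiv.det R : F) = h.coeff 0 := by rw [hdet]; ring
  -- the adjugate
  have hadj : ∀ x, (sc P (LinearEquiv.det R) * R⁻¹) x = - h.coeff 1 • x - R x := by
    intro x
    have h1 := hev (R⁻¹ x)
    have h3 : R (R⁻¹ x) = x := R.apply_symm_apply x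
    rw [h3] at h1
    show (LinearEquiv.det R : F) • (R⁻¹ x) = _
    rw [hdv, eq_sub_iff_add_eq, neg_smul, ← sub_eq_zero, ← h1]
    abel
  refine ⟨hm, by rw [hd, h2], ⟨v, ?_⟩, ?_⟩
  · intro W hW1 hW2
    apply hv W hW1
    intro w hw
    have h1 := hW2 w hw
    have h3 : (sc P (LinearEquiv.det R) * R⁻¹).toLinearMap w = - h.coeff 1 • w - R w := hadj w
    rw [h3] at h1
    have h4 := W.sub_mem (W.smul_mem (- h.coeff 1) hw) h1
    rw [sub_sub_cancel] at h4
    exact h4
  · apply LinearMap.ext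
    intro x
    rw [Polynomial.aeval_eq_sum_range, hd, Finset.sum_range_succ, Finset.sum_range_succ, Finset.sum_range_one,
      hc2, one_smul]
    have h3 : ∀ x, (sc P (LinearEquiv.det R) * R⁻¹).toLinearMap x = - h.coeff 1 • x - R x := hadj
    simp only [pow_two, pow_zero, pow_one, LinearMap.add_apply, LinearMap.smul_apply, Module.End.mul_apply,
      Module.End.one_apply, h3, LinearMap.zero_apply, map_sub, map_smul]
    rw [← hev x]
    module

/-- two factors on a plane -/
theorem wp_plane {P : Type u} [AddCommGroup P] [Module F P] [FiniteDimensional F P] {R : P ≃ₗ[F] P} {h : F[X]}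
    (hR : Cyc R h) (h2 : finrank F P = 2) : WP R 2 (sc P (LinearEquiv.det R)) := by
  obtain ⟨g, hg⟩ := hR.conj_of (cyc_adj hR h2)
  have h1 : WP R 1 (sc P (LinearEquiv.det R) * R⁻¹) := by rw [hg]; exact (WP.one R).conj g
  have h3 := h1.mul (WP.one R)
  rwa [inv_mul_cancel_right] at h3

/-- Planes. -/
theorem planes {P : Type u} [AddCommGroup P] [Module F P] [FiniteDimensional F P] {R : P ≃ₗ[F] P} {h : F[X]}
    (hR : Cyc R h) (h2 : finrank F P = 2) (h1 : h.eval 1 ≠ 0) (m : ℕ) :
    ∀ (E : Type u) [AddCommGroup E] [Module F E] [FiniteDimensional F E], finrank F E = m →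
      WP (bs (sc E (1 : Fˣ)) R) (m + 2) (sc (E × P) (LinearEquiv.det R)) := by
  induction m using Nat.twoStepInduction with
  | zero =>
    intro E _ _ _ hE
    have hs : Sim R (bs (sc E (1 : Fˣ)) R) := by
      have : Subsingleton E := Module.finrank_zero_iff.1 hE
      refine ⟨⟨⟨⟨fun x => (0, x), fun x y => by simp⟩, fun c x => by simp⟩, fun x => x.2, fun x => rfl,
        fun x => Prod.ext (Subsingleton.elim _ _) rfl⟩, fun x => ?_⟩
      exact Prod.ext (Subsingleton.elim _ _) rfl
    exact wp_sim_sc hs (wp_plane hR h2)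
  | one =>
    intro E _ _ _ hE
    obtain ⟨hm, hd, ⟨v, hv⟩, h0⟩ := id hR
    have hEF : finrank F F = finrank F E := by rw [finrank_self, hE]
    have hs : Sim (bs (sc F (1 : Fˣ)) R) (bs (sc E (1 : Fˣ)) R) := sim_bs_sc hEF _ _
    apply wp_sim_sc hs
    have hdet := hR.det
    rw [h2] at hdet
    have hev : h.eval (LinearEquiv.det R : F) = (LinearEquiv.det R : F) * h.eval 1 := by
      rw [h2] at hd
      have hc2 : h.coeff 2 = 1 := by rw [← hd]; exact hm
      rw [Polynomial.eval_eq_sum_range, Polynomial.eval_eq_sum_range, hd]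
      simp only [Finset.sum_range_succ, Finset.sum_range_zero, zero_add, pow_zero, pow_one, mul_one, hc2, one_pow]
      rw [hdet]; ring
    have hcop : IsCoprime (X - C ((1 : Fˣ) : F)) h := by
      rw [Units.val_one]
      rw [(Polynomial.prime_X_sub_C (1 : F)).irreducible.coprime_iff_not_dvd, Polynomial.dvd_iff_isRoot]
      exact h1
    have hcop' : IsCoprime (X - C (LinearEquiv.det R : F)) h := by
      rw [(Polynomial.prime_X_sub_C (LinearEquiv.det R : F)).irreducible.coprime_iff_not_dvd,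
        Polynomial.dvd_iff_isRoot]
      intro h3
      rw [Polynomial.IsRoot.def, hev] at h3
      exact (mul_ne_zero (LinearEquiv.det R).ne_zero h1) h3
    have hA := (cyc_sc (1 : Fˣ)).bs hR hcop
    have hM := (cyc_sc (LinearEquiv.det R)).bs (cyc_adj hR h2) hcop'
    have hdetA : LinearEquiv.det (bs (sc F (1 : Fˣ)) R) = LinearEquiv.det R := by
      rw [bs_det, sc_det, one_pow, one_mul]
    have hdetM : LinearEquiv.det (bs (sc F (LinearEquiv.det R)) (sc P (LinearEquiv.det R) * R⁻¹)) =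
        LinearEquiv.det (bs (sc F (1 : Fˣ)) R) ^ 2 := by
      rw [hdetA, bs_det, map_mul, sc_det, sc_det, finrank_self, h2, map_inv]
      group
    have h3 : WP (bs (sc F (1 : Fˣ)) R) 2 (bs (sc F (LinearEquiv.det R)) (sc P (LinearEquiv.det R) * R⁻¹)) := by
      refine cycW ?_ le_rfl hA hM ⟨(LinearEquiv.det R : F), h, by rw [mul_comm], ?_⟩ hdetM
      · rw [finrank_bs, finrank_self, h2]; norm_num
      · rw [hev]; exact mul_ne_zero (LinearEquiv.det R).ne_zero h1
    have h4 := h3.mul (WP.one _)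
    rw [bs_mul, inv_mul_cancel_right, sc_mul, mul_one, bs_sc_sc] at h4
    exact h4
  | more m ih _ =>
    intro E _ _ _ hE
    -- the model
    have hE' : finrank F (Fin m → F) = m := by simp
    have h3 := ih (Fin m → F) hE'
    have hs1 : Sim (bs (bs (sc (Fin m → F) (1 : Fˣ)) R) (sc P (1 : Fˣ))) (bs (sc E (1 : Fˣ)) R) := by
      refine (sim_assoc _ _ _).trans ?_
      refine (sim_bs (Sim.refl _) (sim_comm R (sc P (1 : Fˣ)))).trans ?_
      refine (sim_assoc _ _ _).symm.trans ?_
      apply sim_bs_sc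
      rw [finrank_bs, hE', h2, hE]
    have hs2 : Sim (bs (sc ((Fin m → F) × P) (1 : Fˣ)) R) (bs (bs (sc (Fin m → F) (1 : Fˣ)) R) (sc P (1 : Fˣ))) := by
      refine (sim_assoc (sc (Fin m → F) (1 : Fˣ)) (sc P (1 : Fˣ)) R).trans ?_
      refine (sim_bs (Sim.refl _) (sim_comm (sc P (1 : Fˣ)) R)).trans ?_
      exact (sim_assoc _ _ _).symm
    apply wp_sim_sc hs1
    have h4 : WP (bs (bs (sc (Fin m → F) (1 : Fˣ)) R) (sc P (1 : Fˣ))) (m + 2)
        (bs (sc ((Fin m → F) × P) (LinearEquiv.det R)) 1) := h3.bs (wp_sc1 _)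
    have h5 : WP (bs (sc ((Fin m → F) × P) (1 : Fˣ)) R) 2 (bs 1 (sc P (LinearEquiv.det R))) :=
      (wp_sc1 2).bs (wp_plane hR h2)
    have h6 := wp_sim_left h5 hs2
    have h7 := h4.mul h6
    rw [bs_mul, mul_one, one_mul, bs_sc_sc] at h7
    exact h7

/-- two dimensional space -/
theorem finrank_two : finrank F (Fin 2 → F) = 2 := by simp

/-- the operator of determinant `ν` -/
theorem sim_two {U : Type u} [AddCommGroup U] [Module F U] [FiniteDimensional F U] {B : U ≃ₗ[F] U} {h : F[X]}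
    {ν : Fˣ} (hm : h.Monic) (hd : h.natDegree = 2) (h0 : h.coeff 0 ≠ 0)
    (hB : Cyc B ((X - C (ν : F)) * h)) (hν : h.eval (ν : F) ≠ 0) :
    ∃ R : (Fin 2 → F) ≃ₗ[F] (Fin 2 → F), Cyc R h ∧ Sim B (bs (sc F ν) R) := by
  obtain ⟨R, hR⟩ := Cyc.exists (F := F) (V := Fin 2 → F) 2 finrank_two hm hd h0
  refine ⟨R, hR, hB.sim ((cyc_sc ν).bs hR ?_)⟩
  rw [(Polynomial.prime_X_sub_C (ν : F)).irreducible.coprime_iff_not_dvd, Polynomial.dvd_iff_isRoot]
  exact hν

/-- the normalised statement -/
theorem sc3n [Fintype F] (h4 : 4 ≤ Fintype.card F)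
    (PEEL : ∀ {E U : Type u} [AddCommGroup E] [Module F E] [FiniteDimensional F E] [AddCommGroup U] [Module F U]
      [FiniteDimensional F U] (l : Fˣ) {C : U ≃ₗ[F] U} {f : F[X]} (hC : Cyc C f) (h3 : 3 ≤ finrank F U) {N : ℕ}
      (hN : finrank F E + 3 ≤ N) {M : (E × U) ≃ₗ[F] (E × U)} (hM : NS M)
      (hdet : LinearEquiv.det M = LinearEquiv.det (bs (sc E l) C) ^ N), WP (bs (sc E l) C) N M)
    {E U : Type u} [AddCommGroup E] [Module F E]
    [FiniteDimensional F E] [AddCommGroup U] [Module F U] [FiniteDimensional F U] {B : U ≃ₗ[F] U} {f : F[X]}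
    (hB : Cyc B f) (hU : finrank F U = 3) (hE : 1 ≤ finrank F E) (hf : f.eval 1 = 0) :
    WP (bs (sc E (1 : Fˣ)) B) (finrank F E + 3) (sc (E × U) (LinearEquiv.det B)) := by
  obtain ⟨h, rfl⟩ := Polynomial.dvd_iff_isRoot.2 hf
  have hm : h.Monic := (monic_X_sub_C (1 : F)).of_mul_monic_left hB.1
  have hd : h.natDegree = 2 := by
    have h1 := hB.2.1
    rw [(monic_X_sub_C (1 : F)).natDegree_mul hm, natDegree_X_sub_C, hU] at h1
    omega
  have hdet := hB.det
  rw [hU, Polynomial.mul_coeff_zero] at hdet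
  have hdet' : (LinearEquiv.det B : F) = h.coeff 0 := by
    rw [hdet]; simp; ring
  have h0 : h.coeff 0 ≠ 0 := by rw [← hdet']; exact (LinearEquiv.det B).ne_zero
  by_cases h1 : h.eval 1 = 0
  · -- the eigenvalue one is multiple
    obtain ⟨h', rfl⟩ := Polynomial.dvd_iff_isRoot.2 h1
    have hm' : h'.Monic := (monic_X_sub_C (1 : F)).of_mul_monic_left hm
    have hd' : h'.natDegree = 1 := by
      rw [(monic_X_sub_C (1 : F)).natDegree_mul hm', natDegree_X_sub_C] at hd
      omega
    obtain ⟨ν, hν⟩ : ∃ ν : F, h' = X - C ν := by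
      refine ⟨-h'.coeff 0, ?_⟩
      rw [map_neg, sub_neg_eq_add]
      have := Polynomial.eq_X_add_C_of_natDegree_le_one hd'.le
      have hc : h'.coeff 1 = 1 := by rw [← hd']; exact hm'
      rw [hc, map_one, one_mul] at this
      exact this
    subst hν
    have hdν : (LinearEquiv.det B : F) = ν := by
      rw [hdet']; simp [Polynomial.mul_coeff_zero]
    by_cases hν1 : ν = 1
    · -- unipotent
      have hdB : LinearEquiv.det B = 1 := by
        apply Units.ext
        rw [hdν, hν1, Units.val_one]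
      have h2U : 2 ≤ finrank F U := by omega
      have hns : NS B⁻¹ := by
        obtain ⟨u, hu⟩ := hB.ns h2U
        refine ⟨B u, fun c hc => ?_⟩
        have h3 : B⁻¹ (B u) = u := B.symm_apply_apply u
        rw [h3] at hc
        by_cases hc0 : c = 0
        · rw [hc0, zero_smul] at hc
          exact hu 0 (by rw [hc, map_zero, smul_zero])
        · apply hu c⁻¹
          nth_rewrite 2 [hc]
          rw [smul_smul, inv_mul_cancel₀ hc0, one_smul]
      have h3 : WP B (finrank F E + 2) B⁻¹ := cycW3 h4 h2U (by omega) hB hns (by rw [map_inv, hdB, one_pow, inv_one])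
      have h5 := h3.mul (WP.one B)
      rw [inv_mul_cancel] at h5
      have h6 : WP (bs (sc E (1 : Fˣ)) B) (finrank F E + 2 + 1) (bs 1 1) := (wp_sc1 _).bs h5
      rw [bs_one] at h6
      have h7 : sc (E × U) (1 : Fˣ) = 1 := sc_one
      rw [hdB, h7]
      exact h6
    · -- two eigenvalues
      have hνu : ν ≠ 0 := by rw [← hdν]; exact (LinearEquiv.det B).ne_zero
      obtain ⟨n, hn⟩ : ∃ n : Fˣ, (n : F) = ν := ⟨Units.mk0 ν hνu, rfl⟩
      have hdn : LinearEquiv.det B = n := by apply Units.ext; rw [hdν, hn]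
      rw [hdn]
      -- the normal form
      have hmJ : ((X - C (1 : F)) * (X - C 1)).Monic := (monic_X_sub_C _).mul (monic_X_sub_C _)
      have hdJ : ((X - C (1 : F)) * (X - C 1)).natDegree = 2 := by
        rw [(monic_X_sub_C (1 : F)).natDegree_mul (monic_X_sub_C _), natDegree_X_sub_C]
      obtain ⟨J, hJ, hsJ⟩ := sim_two (B := B) (ν := n) hmJ hdJ (by simp [Polynomial.mul_coeff_zero])
        (by
          have e1 : (X - C (n : F)) * ((X - C (1 : F)) * (X - C 1)) = (X - C 1) * ((X - C 1) * (X - C ν)) := by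
            rw [hn]; ring
          rw [e1]; exact hB)
        (by
          rw [hn, Polynomial.eval_mul, Polynomial.eval_sub, Polynomial.eval_X, Polynomial.eval_C]
          exact mul_ne_zero (sub_ne_zero.2 hν1) (sub_ne_zero.2 hν1))
      have hdJ1 : LinearEquiv.det J = 1 := by
        have e1 := hsJ.det
        rw [bs_det, sc_det, finrank_self, pow_one, hdn] at e1
        exact (mul_eq_left.1 e1.symm)
      -- the space of dimension one less
      obtain ⟨m, hm1⟩ : ∃ m, finrank F E = m + 1 := ⟨finrank F E - 1, by omega⟩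
      have hE' : finrank F (Fin m → F) = m := by simp
      have hfr : finrank F ((Fin m → F) × U) = finrank F (E × (Fin 2 → F)) := by
        rw [finrank_bs, finrank_bs, hE', hU, hm1, finrank_two]
      obtain ⟨ε⟩ : Nonempty (((Fin m → F) × U) ≃ₗ[F] (E × (Fin 2 → F))) := ⟨LinearEquiv.ofFinrankEq _ _ hfr⟩
      obtain ⟨T, hT⟩ : ∃ T : ((Fin m → F) × U) ≃ₗ[F] ((Fin m → F) × U),
          T = (ε.trans (bs (sc E (1 : Fˣ)) J)).trans ε.symm := ⟨_, rfl⟩
      have hTs : Sim T (bs (sc E (1 : Fˣ)) J) := ⟨ε, fun x => by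
        rw [hT]
        show ε (ε.symm _) = _
        rw [LinearEquiv.apply_symm_apply]; rfl⟩
      have hTdet : LinearEquiv.det T = 1 := by rw [hTs.det, bs_det, sc_det, one_pow, hdJ1, one_mul]
      have hTns : NS T := by
        apply NS.of_sim hTs.symm
        obtain ⟨u, hu⟩ := hJ.ns (by rw [finrank_two])
        exact ⟨(0, u), fun c hc => hu c (congrArg Prod.snd hc)⟩
      -- similarities
      have hs0 : Sim (bs (bs (sc (Fin m → F) (1 : Fˣ)) B) (sc F (1 : Fˣ))) (bs (sc E (1 : Fˣ)) B) := by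
        refine (sim_assoc _ _ _).trans ?_
        refine (sim_bs (Sim.refl _) (sim_comm B (sc F (1 : Fˣ)))).trans ?_
        refine (sim_assoc _ _ _).symm.trans ?_
        apply sim_bs_sc
        rw [finrank_bs, hE', finrank_self, hm1]
      have hs1 : Sim (bs (sc E (1 : Fˣ)) B) (bs T (sc F n)) := by
        refine (sim_bs (Sim.refl _) hsJ).trans ?_
        refine (sim_bs (Sim.refl _) (sim_comm (sc F n) J)).trans ?_
        refine (sim_assoc _ _ _).symm.trans ?_
        exact sim_bs hTs.symm (Sim.refl _)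
      have hs2 := hs0.trans hs1
      apply wp_sim_sc hs0
      -- the nonscalar target
      have hMns : NS (sc ((Fin m → F) × U) n * T⁻¹) := by
        obtain ⟨u, hu⟩ := hTns
        refine ⟨T u, fun c hc => ?_⟩
        have h3 : T⁻¹ (T u) = u := T.symm_apply_apply u
        have hc' : (n : F) • (T⁻¹ (T u)) = c • T u := hc
        rw [h3] at hc'
        by_cases hc0 : c = 0
        · rw [hc0, zero_smul, smul_eq_zero, or_iff_right n.ne_zero] at hc'
          exact hu 0 (by rw [hc', map_zero, smul_zero])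
        · apply hu (c⁻¹ * n)
          rw [mul_smul, hc', smul_smul, inv_mul_cancel₀ hc0, one_smul]
      have hP : WP (bs (sc (Fin m → F) (1 : Fˣ)) B) (m + 3) (sc ((Fin m → F) × U) n * T⁻¹) := by
        apply PEEL 1 hB (by omega) (by rw [hE']) hMns
        rw [map_mul, map_inv, hTdet, inv_one, mul_one, sc_det, bs_det, sc_det, one_pow, one_mul, hdn, finrank_bs,
          hE', hU]
      have hP2 : WP (bs (bs (sc (Fin m → F) (1 : Fˣ)) B) (sc F (1 : Fˣ))) (m + 3)
          (bs (sc ((Fin m → F) × U) n * T⁻¹) 1) := hP.bs (wp_sc1 _)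
      have hP3 : WP (bs (bs (sc (Fin m → F) (1 : Fˣ)) B) (sc F (1 : Fˣ))) 1 (bs T (sc F n)) := by
        exact wp_sim_left (WP.one _) hs2.symm
      have hP4 := hP2.mul hP3
      rw [bs_mul, inv_mul_cancel_right, one_mul, bs_sc_sc] at hP4
      rw [hm1]
      exact hP4
  · -- planes
    obtain ⟨R, hR, hs⟩ := sim_two (B := B) (ν := 1) hm hd h0 (by rw [Units.val_one]; exact hB) (by rw [Units.val_one]; exact h1)
    have hdR : LinearEquiv.det B = LinearEquiv.det R := by
      rw [hs.det, bs_det, sc_det, one_pow, one_mul]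
    have h3 := planes hR finrank_two h1 (finrank F E + 1) (E × F) (by rw [finrank_bs, finrank_self])
    have hs2 : Sim (bs (sc (E × F) (1 : Fˣ)) R) (bs (sc E (1 : Fˣ)) B) := by
      refine (sim_assoc (sc E (1 : Fˣ)) (sc F (1 : Fˣ)) R).trans ?_
      exact sim_bs (Sim.refl _) hs.symm
    rw [hdR]
    exact wp_sim_sc hs2 h3

/-- **SC3**, modulo PEEL. -/
theorem SC3_of [Fintype F] (h4 : 4 ≤ Fintype.card F)
    (PEEL : ∀ {E U : Type u} [AddCommGroup E] [Module F E] [FiniteDimensional F E] [AddCommGroup U] [Module F U]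
      [FiniteDimensional F U] (l : Fˣ) {C : U ≃ₗ[F] U} {f : F[X]} (hC : Cyc C f) (h3 : 3 ≤ finrank F U) {N : ℕ}
      (hN : finrank F E + 3 ≤ N) {M : (E × U) ≃ₗ[F] (E × U)} (hM : NS M)
      (hdet : LinearEquiv.det M = LinearEquiv.det (bs (sc E l) C) ^ N), WP (bs (sc E l) C) N M)
    {E U : Type u}
    [AddCommGroup E] [Module F E] [FiniteDimensional F E]
    [AddCommGroup U] [Module F U] [FiniteDimensional F U] (l : Fˣ) {C : U ≃ₗ[F] U} {f : F[X]}
    (hC : Cyc C f) (hU : finrank F U = 3) (hE : 1 ≤ finrank F E) (hf : f.eval (l : F) = 0)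
    (hd : LinearEquiv.det (bs (sc E l) C) = 1) :
    ∃ z : Fˣ, WP (bs (sc E l) C) (finrank F E + 3) (sc (E × U) z) := by
  have h1 := cyc_scale hC l⁻¹
  have h2 : (f.scaleRoots ((l⁻¹ : Fˣ) : F)).eval 1 = 0 := by
    have := Polynomial.scaleRoots_eval_mul f (l : F) ((l⁻¹ : Fˣ) : F)
    rw [hf, mul_zero, Units.inv_mul] at this
    exact this
  have h3 := wp_scale l (sc3n h4 PEEL h1 hU hE h2)
  have h5 : sc (E × U) l * bs (sc E (1 : Fˣ)) (sc U l⁻¹ * C) = bs (sc E l) C := by
    have h6 : sc (E × U) l = bs (sc E l) (sc U l) := rfl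
    rw [h6, bs_mul, sc_mul, mul_one, ← mul_assoc, sc_mul, mul_inv_cancel, sc_one, one_mul]
  rw [h5, sc_mul] at h3
  exact ⟨_, h3⟩

end Cfsg.Agent.Lib.CovSC3
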