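import Mathlib
import Cfsg.Agent.Lib.CovBas3
import Cfsg.Agent.Lib.CovHG
import Cfsg.Agent.Lib.CovSTAR

set_option autoImplicit false

namespace Cfsg.Agent.Lib.CovSPL

open Module Polynomial Cfsg.Agent.Lib.CyclicProd Cfsg.Agent.Lib.CovDefs

universe u

variable {F : Type u} [Field F] {V : Type u} [AddCommGroup V] [Module F V]
  [FiniteDimensional F V]

/-- normalized reverse -/
noncomputable def rho (p : F[X]) : F[X] := C (p.coeff 0)⁻¹ * p.reverse

theorem rho_mul (p q : F[X]) : rho (p * q) = rho p * rho q := by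
  rw [rho, rho, rho, reverse_mul_of_domain, mul_coeff_zero, mul_inv, C_mul]
  ring

theorem rho_X_sub_C {c : F} (hc : c ≠ 0) : rho (X - C c) = X - C c⁻¹ := by
  rw [rho, reverse_X_sub_C hc, ← mul_assoc, ← C_mul]
  have : (X - C c : F[X]).coeff 0 = -c := by simp
  rw [this, inv_mul_cancel₀ (neg_ne_zero.2 hc), C_1, one_mul]

theorem rho_pow (p : F[X]) (m : ℕ) : rho (p ^ m) = rho p ^ m := by
  induction m with
  | zero =>
    have : (1 : F[X]).reverse = 1 := by rw [← C_1, reverse_C]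
    simp [rho, this]
  | succ m ih => rw [pow_succ, pow_succ, rho_mul, ih]

theorem rho_monic {p : F[X]} (h0 : p.coeff 0 ≠ 0) : (rho p).Monic := by
  have hl : p.reverse.leadingCoeff = p.coeff 0 := by
    rw [reverse_leadingCoeff, trailingCoeff, natTrailingDegree_eq_zero.2 (Or.inr h0)]
  rw [rho, Monic, leadingCoeff_mul, leadingCoeff_C, hl, inv_mul_cancel₀ h0]

theorem rho_natDegree {p : F[X]} (h0 : p.coeff 0 ≠ 0) : (rho p).natDegree = p.natDegree := by
  have hr : p.reverse.natDegree = p.natDegree := by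
    rw [reverse_natDegree, natTrailingDegree_eq_zero.2 (Or.inr h0), Nat.sub_zero]
  rw [rho, natDegree_C_mul (inv_ne_zero h0), hr]

theorem rho_coeff_zero {p : F[X]} (hm : p.Monic) : (rho p).coeff 0 = (p.coeff 0)⁻¹ := by
  rw [rho, coeff_C_mul, coeff_zero_reverse, hm.leadingCoeff, mul_one]

theorem rho_rootless {p : F[X]} (hm : p.Monic) (h : ∀ x : F, p.eval x ≠ 0) (x : F) :
    (rho p).eval x ≠ 0 := by
  have h0 : p.coeff 0 ≠ 0 := by rw [coeff_zero_eq_eval_zero]; exact h 0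
  by_cases hx : x = 0
  · subst hx
    rw [← coeff_zero_eq_eval_zero, rho_coeff_zero hm]
    exact inv_ne_zero h0
  · rw [rho, eval_mul, eval_C]
    refine mul_ne_zero (inv_ne_zero h0) ?_
    intro h1
    have hx' : x⁻¹ ≠ 0 := inv_ne_zero hx
    let _ : Invertible x⁻¹ := invertibleOfNonzero hx'
    have h2 := eval₂_reverse_mul_pow (RingHom.id F) x⁻¹ p
    rw [invOf_eq_inv, inv_inv] at h2
    change (p.reverse).eval x * _ = p.eval x⁻¹ at h2
    apply h x⁻¹
    rw [← h2, h1, zero_mul]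

theorem isCoprime_X_sub_C {c : F} {g : F[X]} (h : g.eval c ≠ 0) : IsCoprime (X - C c) g := by
  rw [(irreducible_X_sub_C c).coprime_iff_not_dvd, dvd_iff_isRoot]
  exact h

/-- a good polynomial with one rational root -/
theorem exists_good [Fintype F] {n : ℕ} (hn : 3 ≤ n) (c δ : Fˣ) :
    ∃ h : F[X], h.Monic ∧ h.natDegree = n - 1 ∧ (∀ x : F, h.eval x ≠ 0) ∧
      (-1) ^ n * ((X - C (c : F)) * h).coeff 0 = (δ : F) := by
  obtain ⟨h, hm, hd, h0, hr⟩ := rootless (F := F) (e := n - 1) (by omega)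
    (b := (-1) ^ (n + 1) * (δ : F) * (c : F)⁻¹)
    (mul_ne_zero (mul_ne_zero (pow_ne_zero _ (neg_ne_zero.2 one_ne_zero)) δ.ne_zero)
      (inv_ne_zero c.ne_zero))
  refine ⟨h, hm, hd, hr, ?_⟩
  rw [mul_coeff_zero, h0]
  have e1 : (X - C (c : F) : F[X]).coeff 0 = -c := by simp
  rw [e1]
  have e2 : ((-1 : F)) ^ n * (-1) ^ n = 1 := by
    rw [← mul_pow]; simp
  have hc : (c : F) * (c : F)⁻¹ = 1 := mul_inv_cancel₀ c.ne_zero
  rw [pow_succ]
  linear_combination (δ : F) * ((c : F) * (c : F)⁻¹) * e2 + (δ : F) * hc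

theorem det_of_cyc {M : V ≃ₗ[F] V} {g : F[X]} (h : Cyc M g) {n : ℕ} (hn : finrank F V = n) {δ : Fˣ}
    (hg : (-1) ^ n * g.coeff 0 = (δ : F)) : LinearEquiv.det M = δ := by
  apply Units.ext
  rw [h.det, hn, hg]

theorem SPL [Fintype F] (h4 : 4 ≤ Fintype.card F) {U W : Type u}
    [AddCommGroup U] [Module F U] [FiniteDimensional F U]
    [AddCommGroup W] [Module F W] [FiniteDimensional F W] {Cc : U ≃ₗ[F] U} {f : F[X]}
    (hU : 2 ≤ finrank F U) (hC : Cyc Cc f) (hW : 3 ≤ finrank F W) {A₂ : W ≃ₗ[F] W} (hG : G A₂) :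
    H (bs Cc A₂) := by
  classical
  have hcard : 3 ≤ Fintype.card Fˣ := by rw [Fintype.card_units]; omega
  set n₁ := finrank F U with hn₁
  set n₂ := finrank F W with hn₂
  have hn : finrank F (U × W) = n₁ + n₂ := Module.finrank_prod
  set k := (n₁ + n₂) / 2 with hk
  have hk2 : 2 ≤ k := by omega
  have hkW : n₂ / 2 + 1 ≤ k := by omega
  set δ₁ : Fˣ := LinearEquiv.det Cc ^ k with hδ₁
  set δ₂ : Fˣ := LinearEquiv.det A₂ ^ k with hδ₂
  -- construction from data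
  have build : ∀ (c₂ : Fˣ) (g₁ : F[X]), g₁.eval (c₂ : F) ≠ 0 →
      ∃ h₂ : F[X], h₂.Monic ∧ h₂.natDegree = n₂ - 1 ∧ (∀ x : F, h₂.eval x ≠ 0) ∧
        (-1) ^ n₂ * ((X - C (c₂ : F)) * h₂).coeff 0 = (δ₂ : F) := by
    intro c₂ g₁ _
    exact exists_good hW c₂ δ₂
  have second : ∀ (c₂ : Fˣ) (h₂ : F[X]), h₂.Monic → h₂.natDegree = n₂ - 1 →
      (∀ x : F, h₂.eval x ≠ 0) → (-1) ^ n₂ * ((X - C (c₂ : F)) * h₂).coeff 0 = (δ₂ : F) →
      ∃ D₂ : W ≃ₗ[F] W, Cyc D₂ ((X - C (c₂ : F)) * h₂) ∧ SP A₂ k D₂ := by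
    intro c₂ h₂ hm hd hr h0
    obtain ⟨D₂, hD₂⟩ := Cyc.exists (V := W) n₂ hn₂.symm
      (p := (X - C (c₂ : F)) * h₂) ((monic_X_sub_C _).mul hm)
      (by rw [(monic_X_sub_C _).natDegree_mul hm, natDegree_X_sub_C, hd]; omega)
      (by
        intro h
        rw [h, mul_zero] at h0
        exact δ₂.ne_zero h0.symm)
    refine ⟨D₂, hD₂, hG k hkW D₂ _ hD₂ ⟨c₂, h₂, mul_comm _ _, hr _⟩ ?_⟩
    rw [det_of_cyc hD₂ hn₂.symm h0, hδ₂]
  have coprime : ∀ (c₁ a c₂ : Fˣ) (m : ℕ) (h₂ : F[X]), c₁ ≠ c₂ → a ≠ c₂ →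
      (∀ x : F, h₂.eval x ≠ 0) →
      IsCoprime ((X - C (c₁ : F)) * (X - C (a : F)) ^ m) ((X - C (c₂ : F)) * h₂) := by
    intro c₁ a c₂ m h₂ h1 h2 hr
    have key : ∀ x : Fˣ, x ≠ c₂ → IsCoprime (X - C (x : F)) ((X - C (c₂ : F)) * h₂) := by
      intro x hx
      apply isCoprime_X_sub_C
      rw [eval_mul, eval_sub, eval_X, eval_C]
      exact mul_ne_zero (sub_ne_zero.2 fun h => hx (Units.ext h)) (hr _)
    exact (key c₁ h1).mul_left ((key a h2).pow_left)
  have good : ∀ (g₁ : F[X]) (c₂ : Fˣ) (h₂ : F[X]), g₁.eval (c₂ : F) ≠ 0 →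
      (∀ x : F, h₂.eval x ≠ 0) → SR (g₁ * ((X - C (c₂ : F)) * h₂)) := by
    intro g₁ c₂ h₂ h1 hr
    refine ⟨c₂, g₁ * h₂, by ring, ?_⟩
    rw [eval_mul]
    exact mul_ne_zero h1 (hr _)
  rcases Nat.lt_or_ge k 3 with hk3 | hk3
  · -- k = 2, so n₁ = 2, n₂ = 3
    have hk' : k = 2 := by omega
    have hn1 : n₁ = 2 := by omega
    have hn2 : n₂ = 3 := by omega
    obtain ⟨a, ha⟩ : ∃ a : Fˣ, a * a ≠ δ₁ := by
      by_contra hcon
      push Not at hcon
      -- all squares equal: at most two elements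
      have h1 : ∀ a : Fˣ, a = 1 ∨ a = -1 := by
        intro a
        have e1 := hcon a
        have e2 := hcon 1
        have e3 : a * a = 1 := by rw [e1, ← e2, one_mul]
        have e4 : (a : F) * a = 1 := by rw [← Units.val_mul, e3, Units.val_one]
        rcases mul_self_eq_one_iff.1 e4 with h | h
        · left; exact Units.ext h
        · right; exact Units.ext (by simpa using h)
      have h2 : (Finset.univ : Finset Fˣ) ⊆ {1, -1} := by
        intro a _
        rcases h1 a with h | h <;> simp [h]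
      have h3 := Finset.card_le_card h2
      have h4 : ({1, -1} : Finset Fˣ).card ≤ 2 := Finset.card_le_two
      rw [Finset.card_univ] at h3
      omega
    set c₁ : Fˣ := δ₁ * a⁻¹ with hc₁
    have hc₁a : c₁ ≠ a := by
      intro h
      apply ha
      have : c₁ * a = δ₁ := by rw [hc₁, inv_mul_cancel_right]
      rw [← this, h]
    obtain ⟨c₂, hc₂⟩ : ∃ c₂ : Fˣ, c₂ ∉ ({c₁, a} : Finset Fˣ) := by
      by_contra hcon
      push Not at hcon
      have h3 := Finset.card_le_card (s := Finset.univ) (t := ({c₁, a} : Finset Fˣ))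
        (fun x _ => hcon x)
      have h4 : ({c₁, a} : Finset Fˣ).card ≤ 2 := Finset.card_le_two
      rw [Finset.card_univ] at h3
      omega
    simp only [Finset.mem_insert, Finset.mem_singleton, not_or] at hc₂
    obtain ⟨hc2a, hc2b⟩ := hc₂
    have heval : ((X - C (c₁ : F)) * (X - C (a : F)) ^ 1 : F[X]).eval (c₂ : F) ≠ 0 := by
      rw [eval_mul, eval_pow, eval_sub, eval_sub, eval_X, eval_C, eval_C]
      exact mul_ne_zero (sub_ne_zero.2 fun h => hc2a (Units.ext h))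
        (pow_ne_zero _ (sub_ne_zero.2 fun h => hc2b (Units.ext h)))
    have hg1c : ((X - C (c₁ : F)) * (X - C (a : F)) ^ 1 : F[X]).coeff 0 = (δ₁ : F) := by
      rw [coeff_zero_eq_eval_zero, eval_mul, eval_pow, eval_sub, eval_sub, eval_X, eval_C, eval_C]
      have : (c₁ : F) * a = δ₁ := by rw [← Units.val_mul, hc₁, inv_mul_cancel_right]
      rw [← this]; ring
    obtain ⟨D₁, hD₁⟩ := Cyc.exists (V := U) n₁ hn₁.symm
      (p := (X - C (c₁ : F)) * (X - C (a : F)) ^ 1)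
      ((monic_X_sub_C _).mul ((monic_X_sub_C _).pow 1))
      (by rw [(monic_X_sub_C _).natDegree_mul ((monic_X_sub_C _).pow 1), natDegree_X_sub_C,
            (monic_X_sub_C _).natDegree_pow, natDegree_X_sub_C]; omega)
      (by rw [hg1c]; exact δ₁.ne_zero)
    have hW1 : WP Cc k D₁ := by
      refine CovSTAR.cycW hU hk2 hC hD₁ ⟨c₁, (X - C (a : F)) ^ 1, mul_comm _ _, ?_⟩ ?_
      · rw [eval_pow, eval_sub, eval_X, eval_C]
        exact pow_ne_zero _ (sub_ne_zero.2 fun h => hc₁a (Units.ext h))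
      · rw [det_of_cyc hD₁ hn₁.symm (δ := δ₁) (by rw [hg1c, hn1]; ring), hδ₁]
    obtain ⟨h₂, hm, hd, hr, h0⟩ := build c₂ _ heval
    obtain ⟨D₂, hD₂, hSP⟩ := second c₂ h₂ hm hd hr h0
    refine ⟨bs D₁ D₂, _, Cyc.bs hD₁ hD₂ (coprime c₁ a c₂ 1 h₂ (Ne.symm hc2a) (Ne.symm hc2b) hr),
      good _ c₂ h₂ heval hr, ?_, ?_⟩
    · rw [hn]; exact WP.bs_sp hW1 hSP
    · intro hev
      exfalso
      rw [hn, hn1, hn2] at hev
      exact absurd hev (by decide)
  · -- k ≥ 3
    obtain ⟨c₂, hc21, hc2δ, hc2⟩ : ∃ c₂ : Fˣ, c₂ ≠ 1 ∧ c₂ ≠ δ₁ ∧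
        (δ₁ * δ₁ ≠ 1 → c₂ = δ₁⁻¹) := by
      by_cases hδ : δ₁ * δ₁ = 1
      · obtain ⟨c₂, hc₂⟩ : ∃ c₂ : Fˣ, c₂ ∉ ({1, δ₁} : Finset Fˣ) := by
          by_contra hcon
          push Not at hcon
          have h3 := Finset.card_le_card (s := Finset.univ) (t := ({1, δ₁} : Finset Fˣ))
            (fun x _ => hcon x)
          have h4 : ({1, δ₁} : Finset Fˣ).card ≤ 2 := Finset.card_le_two
          rw [Finset.card_univ] at h3
          omega
        simp only [Finset.mem_insert, Finset.mem_singleton, not_or] at hc₂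
        exact ⟨c₂, hc₂.1, hc₂.2, fun h => absurd hδ h⟩
      · refine ⟨δ₁⁻¹, ?_, ?_, fun _ => rfl⟩
        · intro h
          apply hδ
          rw [inv_eq_one] at h
          rw [h, one_mul]
        · intro h
          apply hδ
          rw [← h]
          nth_rewrite 1 [h]
          exact mul_inv_cancel _
    have heval : ((X - C (δ₁ : F)) * (X - C ((1 : Fˣ) : F)) ^ (n₁ - 1) : F[X]).eval (c₂ : F) ≠ 0 := by
      rw [eval_mul, eval_pow, eval_sub, eval_sub, eval_X, eval_C, eval_C]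
      exact mul_ne_zero (sub_ne_zero.2 fun h => hc2δ (Units.ext h))
        (pow_ne_zero _ (sub_ne_zero.2 fun h => hc21 (Units.ext h)))
    have hg1c : (-1) ^ n₁ * ((X - C (δ₁ : F)) * (X - C ((1 : Fˣ) : F)) ^ (n₁ - 1) : F[X]).coeff 0 =
        (δ₁ : F) := by
      rw [coeff_zero_eq_eval_zero, eval_mul, eval_pow, eval_sub, eval_sub, eval_X, eval_C, eval_C]
      obtain ⟨m, hm⟩ : ∃ m, n₁ = m + 1 := ⟨n₁ - 1, by omega⟩
      rw [hm, Nat.add_sub_cancel, Units.val_one, zero_sub, zero_sub, pow_succ]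
      have e2 : ((-1 : F)) ^ m * (-1) ^ m = 1 := by
        rw [← mul_pow]; simp
      linear_combination (δ₁ : F) * e2
    obtain ⟨D₁, hD₁⟩ := Cyc.exists (V := U) n₁ hn₁.symm
      (p := (X - C (δ₁ : F)) * (X - C ((1 : Fˣ) : F)) ^ (n₁ - 1))
      ((monic_X_sub_C _).mul ((monic_X_sub_C _).pow _))
      (by rw [(monic_X_sub_C _).natDegree_mul ((monic_X_sub_C _).pow _), natDegree_X_sub_C,
            (monic_X_sub_C _).natDegree_pow, natDegree_X_sub_C]; omega)
      (by intro h; rw [h, mul_zero] at hg1c; exact δ₁.ne_zero hg1c.symm)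
    have hdet1 : LinearEquiv.det D₁ = δ₁ := det_of_cyc hD₁ hn₁.symm hg1c
    have hW1 : WP Cc k D₁ := CovSTAR.cycW3 h4 hU hk3 hC (hD₁.ns hU) (by rw [hdet1])
    obtain ⟨h₂, hm, hd, hr, h0⟩ := build c₂ _ heval
    obtain ⟨D₂, hD₂, hSP⟩ := second c₂ h₂ hm hd hr h0
    have hdet2 : LinearEquiv.det D₂ = δ₂ := det_of_cyc hD₂ hn₂.symm h0
    have hcyc := Cyc.bs hD₁ hD₂ (coprime δ₁ 1 c₂ (n₁ - 1) h₂ (Ne.symm hc2δ) (Ne.symm hc21) hr)
    refine ⟨bs D₁ D₂, _, hcyc, good _ c₂ h₂ heval hr, ?_, ?_⟩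
    · rw [hn]; exact WP.bs_sp hW1 hSP
    · intro _ hdet
      rw [hn]
      rw [bs_det] at hdet
      have hδδ : δ₁ * δ₂ = 1 := by rw [hδ₁, hδ₂, ← mul_pow, hdet, one_pow]
      by_cases hδ : δ₁ * δ₁ = 1
      · have h21 : δ₂ = δ₁ := mul_left_cancel (hδδ.trans hδ.symm)
        have hi : δ₁⁻¹ = δ₁ := inv_eq_of_mul_eq_one_left hδ
        rw [bs_inv]
        apply WP.bs_sp
        · apply CovSTAR.cycW3 h4 hU hk3 hC
          · obtain ⟨q, hq, _⟩ := hD₁.inv
            exact hq.ns hU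
          · rw [map_inv, hdet1, hi]
        · obtain ⟨q, hq, hq'⟩ := hD₂.inv
          refine hG k hkW _ q hq (hq' ⟨c₂, h₂, mul_comm _ _, hr _⟩) ?_
          rw [map_inv, hdet2, h21, hi, ← h21]
      · have hc2' := hc2 hδ
        have h2inv : δ₂ = δ₁⁻¹ := by rw [← mul_left_cancel_iff (a := δ₁), hδδ, mul_inv_cancel]
        have hh0 : h₂.coeff 0 ≠ 0 := by rw [coeff_zero_eq_eval_zero]; exact hr 0
        -- the second factor for the inverse
        obtain ⟨D₂', hD₂', hSP'⟩ := second c₂ (rho h₂) (rho_monic hh0)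
          (by rw [rho_natDegree hh0, hd]) (rho_rootless hm hr) (by
            rw [mul_coeff_zero] at h0 ⊢
            rw [rho_coeff_zero hm]
            have e1 : (X - C (c₂ : F) : F[X]).coeff 0 = -c₂ := by simp
            rw [e1] at h0 ⊢
            have e2 : (c₂ : F) = (δ₂ : F) := by rw [hc2', h2inv]
            rw [e2] at h0 ⊢
            have hδ0 : (δ₂ : F) ≠ 0 := δ₂.ne_zero
            have e3 : (-1) ^ n₂ * (-h₂.coeff 0) = (1 : F) := by
              apply mul_left_cancel₀ hδ0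
              linear_combination h0
            have e4 : h₂.coeff 0 * h₂.coeff 0 = 1 := by
              have : ((-1 : F) ^ n₂) * (-1) ^ n₂ = 1 := by rw [← mul_pow]; simp
              linear_combination (-(h₂.coeff 0 * h₂.coeff 0)) * this +
                (-((-1) ^ n₂ * h₂.coeff 0) + 1) * e3
            have e5 : (h₂.coeff 0)⁻¹ = h₂.coeff 0 := inv_eq_of_mul_eq_one_left e4
            rw [e5]
            exact h0)
        have hcyc' := Cyc.bs hD₁ hD₂' (coprime δ₁ 1 c₂ (n₁ - 1) (rho h₂) (Ne.symm hc2δ)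
          (Ne.symm hc21) (rho_rootless hm hr))
        have hS' : SP (bs Cc A₂) k (bs D₁ D₂') := WP.bs_sp hW1 hSP'
        have hinv := hcyc.inv'
        have hpoly : C (((X - C (δ₁ : F)) * (X - C ((1 : Fˣ) : F)) ^ (n₁ - 1) *
            ((X - C (c₂ : F)) * h₂)).coeff 0)⁻¹ * ((X - C (δ₁ : F)) *
            (X - C ((1 : Fˣ) : F)) ^ (n₁ - 1) * ((X - C (c₂ : F)) * h₂)).reverse =
            (X - C (δ₁ : F)) * (X - C ((1 : Fˣ) : F)) ^ (n₁ - 1) *
              ((X - C (c₂ : F)) * rho h₂) := by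
          change rho _ = _
          rw [rho_mul, rho_mul, rho_mul, rho_pow, rho_X_sub_C δ₁.ne_zero,
            rho_X_sub_C (Units.ne_zero _), rho_X_sub_C c₂.ne_zero, Units.val_one, inv_one]
          have e1 : (C (δ₁ : F)⁻¹ : F[X]) = C (c₂ : F) := by
            rw [hc2', Units.val_inv_eq_inv_val]
          have e2 : (C (c₂ : F)⁻¹ : F[X]) = C (δ₁ : F) := by
            rw [hc2', Units.val_inv_eq_inv_val, inv_inv]
          rw [e1, e2]
          ring
        rw [hpoly] at hinv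
        obtain ⟨g, hg⟩ := hcyc'.conj_of hinv
        rw [hg]
        exact hS'.conj g

end Cfsg.Agent.Lib.CovSPL
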