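import Mathlib
import Cfsg.Agent.Lib.CovDefs

set_option autoImplicit false
set_option linter.all false

/-!
Structure theorem for operators which are not (scalar + rank one) (piece STR of S2483).
-/

namespace Cfsg.Agent.Lib.CovSTR

open Module Polynomial Cfsg.Agent.Lib.CyclicProd Cfsg.Agent.Lib.CovDefs

universe u

variable {F : Type u} [Field F]

/-! ### Similarity -/

section Sim

variable {V W U X Y : Type u} [AddCommGroup V] [Module F V] [AddCommGroup W] [Module F W]
  [AddCommGroup U] [Module F U] [AddCommGroup X] [Module F X] [AddCommGroup Y] [Module F Y]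

theorem Sim.rfl' (A : V ≃ₗ[F] V) : Sim A A := ⟨LinearEquiv.refl F V, fun _ => rfl⟩

theorem Sim.symm {A : V ≃ₗ[F] V} {B : W ≃ₗ[F] W} (h : Sim A B) : Sim B A := by
  obtain ⟨e, he⟩ := h
  refine ⟨e.symm, fun x => ?_⟩
  apply e.injective
  rw [he]; simp

theorem Sim.trans {A : V ≃ₗ[F] V} {B : W ≃ₗ[F] W} {C : U ≃ₗ[F] U} (h : Sim A B) (h' : Sim B C) :
    Sim A C := by
  obtain ⟨e, he⟩ := h
  obtain ⟨e', he'⟩ := h'
  exact ⟨e.trans e', fun x => by simp [he, he']⟩

theorem Sim.bs {A : V ≃ₗ[F] V} {A' : W ≃ₗ[F] W} {B : X ≃ₗ[F] X} {B' : Y ≃ₗ[F] Y}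
    (h : Sim A A') (h' : Sim B B') : Sim (CovDefs.bs A B) (CovDefs.bs A' B') := by
  obtain ⟨e, he⟩ := h
  obtain ⟨e', he'⟩ := h'
  refine ⟨e.prodCongr e', fun x => ?_⟩
  apply Prod.ext
  · exact he x.1
  · exact he' x.2

theorem bs_comm (A : V ≃ₗ[F] V) (B : W ≃ₗ[F] W) : Sim (CovDefs.bs A B) (CovDefs.bs B A) :=
  ⟨LinearEquiv.prodComm F V W, fun _ => rfl⟩

theorem bs_assoc (A : V ≃ₗ[F] V) (B : W ≃ₗ[F] W) (C : U ≃ₗ[F] U) :
    Sim (CovDefs.bs (CovDefs.bs A B) C) (CovDefs.bs A (CovDefs.bs B C)) :=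
  ⟨LinearEquiv.prodAssoc F V W U, fun _ => rfl⟩

/-- adding a zero block -/
theorem bs_zero [Subsingleton W] (A : V ≃ₗ[F] V) (B : W ≃ₗ[F] W) : Sim A (CovDefs.bs B A) := by
  refine ⟨⟨⟨⟨fun v => (0, v), fun a b => by simp⟩, fun c a => by simp⟩, fun p => p.2, fun v => rfl, fun p => ?_⟩,
    fun x => ?_⟩
  · exact Prod.ext (Subsingleton.elim _ _) rfl
  · exact Prod.ext (Subsingleton.elim _ _) rfl

theorem Cyc.of_sim [FiniteDimensional F V] [FiniteDimensional F W] {A : V ≃ₗ[F] V} {B : W ≃ₗ[F] W}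
    (h : Sim A B) {p : F[X]} (hA : Cyc A p) : Cyc B p := by
  obtain ⟨e, he⟩ := h
  obtain ⟨h1, h2, ⟨v, hv⟩, h4⟩ := hA
  have hpow : ∀ (q : F[X]) (x : V), e (aeval A.toLinearMap q x) = aeval B.toLinearMap q (e x) := by
    intro q x
    induction q using Polynomial.induction_on' with
    | add p q hp hq => simp [hp, hq]
    | monomial n a =>
      rw [aeval_monomial, aeval_monomial]
      simp only [Module.End.mul_apply, Module.algebraMap_end_apply, map_smul]
      congr 1
      induction n with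
      | zero => simp
      | succ n ih =>
        rw [pow_succ', pow_succ', Module.End.mul_apply, Module.End.mul_apply, ← ih]
        exact he _
  refine ⟨h1, by rw [h2, e.finrank_eq], ⟨e v, ?_⟩, ?_⟩
  · intro S hS hSB
    have h5 : S.comap e.toLinearMap = ⊤ := by
      apply hv
      · exact hS
      · intro w hw
        show e (A w) ∈ S
        rw [he]
        exact hSB _ hw
    rw [eq_top_iff]
    intro w _
    have h6 : e.symm w ∈ S.comap e.toLinearMap := by rw [h5]; trivial
    simpa using h6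
  · ext w
    have h5 := hpow p (e.symm w)
    rw [h4] at h5
    simpa using h5.symm

/-- rank of `A - l` -/
noncomputable def rk (A : V ≃ₗ[F] V) (l : F) : ℕ := finrank F (LinearMap.range (A.toLinearMap - l • LinearMap.id))

theorem slow_iff (A : V ≃ₗ[F] V) : Slow A ↔ ∃ l : F, rk A l ≤ 1 := Iff.rfl

theorem rk_sim {A : V ≃ₗ[F] V} {B : W ≃ₗ[F] W} (h : Sim A B) (l : F) : rk A l = rk B l := by
  obtain ⟨e, he⟩ := h
  unfold rk
  have h1 : LinearMap.range (B.toLinearMap - l • LinearMap.id) =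
      (LinearMap.range (A.toLinearMap - l • LinearMap.id)).map e.toLinearMap := by
    ext w
    constructor
    · rintro ⟨x, rfl⟩
      refine ⟨_, ⟨e.symm x, rfl⟩, ?_⟩
      simp [he]
    · rintro ⟨_, ⟨x, rfl⟩, rfl⟩
      refine ⟨e x, ?_⟩
      simp [he]
  rw [h1]
  exact (LinearEquiv.finrank_map_eq e _).symm

theorem rk_bs [FiniteDimensional F V] [FiniteDimensional F W] (A : V ≃ₗ[F] V) (B : W ≃ₗ[F] W) (l : F) :
    rk (CovDefs.bs A B) l = rk A l + rk B l := by
  unfold rk
  have h1 : (CovDefs.bs A B).toLinearMap - l • LinearMap.id =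
      LinearMap.prodMap (A.toLinearMap - l • LinearMap.id) (B.toLinearMap - l • LinearMap.id) := by
    ext x <;> simp [CovDefs.bs]
  rw [h1, LinearMap.range_prodMap]
  rw [← Module.finrank_prod]
  refine LinearEquiv.finrank_eq ⟨⟨⟨fun x => (⟨x.1.1, x.2.1⟩, ⟨x.1.2, x.2.2⟩), fun a b => rfl⟩, fun c a => rfl⟩,
    fun y => ⟨(y.1.1, y.2.1), ⟨y.1.2, y.2.2⟩⟩, fun x => rfl, fun y => rfl⟩

end Sim

/-! ### Restriction to invariant subspaces -/

section Restrict

variable {V : Type u} [AddCommGroup V] [Module F V] [FiniteDimensional F V]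

/-- restriction to an invariant subspace -/
noncomputable def rs (A : V ≃ₗ[F] V) (U : Submodule F V) (hU : ∀ x ∈ U, A x ∈ U) : U ≃ₗ[F] U :=
  LinearEquiv.ofInjectiveEndo (A.toLinearMap.restrict hU) (by
    intro x y h
    apply Subtype.ext
    apply A.injective
    exact congrArg Subtype.val h)

theorem rs_apply (A : V ≃ₗ[F] V) (U : Submodule F V) (hU : ∀ x ∈ U, A x ∈ U) (x : U) :
    ((rs A U hU x : U) : V) = A x := rfl

theorem rs_aeval (A : V ≃ₗ[F] V) (U : Submodule F V) (hU : ∀ x ∈ U, A x ∈ U) (p : F[X]) (x : U) :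
    ((aeval (rs A U hU).toLinearMap p x : U) : V) = aeval A.toLinearMap p (x : V) := by
  induction p using Polynomial.induction_on' with
  | add p q hp hq => simp [hp, hq]
  | monomial n a =>
    rw [aeval_monomial, aeval_monomial]
    simp only [Module.End.mul_apply, Module.algebraMap_end_apply, Submodule.coe_smul]
    congr 1
    induction n with
    | zero => simp
    | succ n ih =>
      rw [pow_succ', pow_succ', Module.End.mul_apply, Module.End.mul_apply, ← ih]
      rfl

theorem sim_of_compl (A : V ≃ₗ[F] V) {U W : Submodule F V} (hU : ∀ x ∈ U, A x ∈ U) (hW : ∀ x ∈ W, A x ∈ W)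
    (h : IsCompl U W) : Sim A (CovDefs.bs (rs A U hU) (rs A W hW)) := by
  apply Sim.symm
  refine ⟨Submodule.prodEquivOfIsCompl U W h, fun y => ?_⟩
  rw [Submodule.coe_prodEquivOfIsCompl', Submodule.coe_prodEquivOfIsCompl', map_add]
  rfl

/-- a vector whose annihilator is the minimal polynomial -/
theorem exists_gen (T : V →ₗ[F] V) : ∃ u : V, ∀ p : F[X], aeval T p u = 0 → minpoly F T ∣ p := by
  obtain ⟨x, hx⟩ := Module.exists_ker_toSpanSingleton_eq_annihilator (R := F[X]) (M := Module.AEval' T)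
  refine ⟨(Module.AEval'.of T).symm x, fun p hp => ?_⟩
  rw [← Polynomial.span_minpoly_eq_annihilator] at hx
  rw [← Ideal.mem_span_singleton, ← hx, LinearMap.mem_ker, LinearMap.toSpanSingleton_apply]
  have h1 : Module.AEval'.of T (aeval T p ((Module.AEval'.of T).symm x)) =
    p • Module.AEval'.of T ((Module.AEval'.of T).symm x) := rfl
  rw [LinearEquiv.apply_symm_apply] at h1
  rw [← h1, hp, map_zero]

/-- evaluation at `u` -/
noncomputable def Ph (T : V →ₗ[F] V) (u : V) : F[X] →ₗ[F] V :=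
  (LinearMap.applyₗ u) ∘ₗ (aeval T).toLinearMap

theorem Ph_apply (T : V →ₗ[F] V) (u : V) (p : F[X]) : Ph T u p = aeval T p u := rfl

theorem decomp (T : V →ₗ[F] V) (hV : 0 < finrank F V) :
    ∃ U W : Submodule F V, IsCompl U W ∧ (∀ x ∈ U, T x ∈ U) ∧ (∀ x ∈ W, T x ∈ W) ∧
      finrank F U = (minpoly F T).natDegree ∧
      ∃ u ∈ U, ∀ S : Submodule F V, u ∈ S → (∀ x ∈ S, T x ∈ S) → U ≤ S := by
  obtain ⟨u, hu⟩ := exists_gen T
  have hVn : Nontrivial V := Module.finrank_pos_iff.1 hV
  set f := minpoly F T with hf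
  have hint : IsIntegral F T := Algebra.IsIntegral.isIntegral T
  have hmon : f.Monic := minpoly.monic hint
  have hfT : aeval T f = 0 := minpoly.aeval F T
  obtain ⟨d, hd⟩ : ∃ d, f.natDegree = d + 1 :=
    ⟨f.natDegree - 1, (Nat.succ_pred_eq_of_pos (minpoly.natDegree_pos hint)).symm⟩
  have hsmall : ∀ p : F[X], p.degree < ((d + 1 : ℕ) : WithBot ℕ) → aeval T p u = 0 → p = 0 := by
    intro p hp h0
    apply Polynomial.eq_zero_of_dvd_of_degree_lt (hu p h0)
    rw [Polynomial.degree_eq_natDegree hmon.ne_zero, hd]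
    exact hp
  have hmod : ∀ (p : F[X]) (x : V), aeval T p x = aeval T (p %ₘ f) x := by
    intro p x
    have h1 := Polynomial.modByMonic_add_div p f
    conv_lhs => rw [← h1]
    rw [map_add, map_mul, hfT, zero_mul, add_zero]
  have hmoddeg : ∀ p : F[X], (p %ₘ f).degree < ((d + 1 : ℕ) : WithBot ℕ) := by
    intro p
    have h1 := Polynomial.degree_modByMonic_lt p hmon
    rwa [Polynomial.degree_eq_natDegree hmon.ne_zero, hd] at h1
  set U : Submodule F V := LinearMap.range (Ph T u) with hUdef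
  have hUmem : ∀ x ∈ U, ∃ g : F[X], g.degree < ((d + 1 : ℕ) : WithBot ℕ) ∧ x = aeval T g u := by
    rintro _ ⟨p, rfl⟩
    exact ⟨p %ₘ f, hmoddeg p, hmod p u⟩
  have hUT : ∀ x ∈ U, T x ∈ U := by
    rintro _ ⟨p, rfl⟩
    refine ⟨X * p, ?_⟩
    rw [Ph_apply, Ph_apply, map_mul, aeval_X]
    rfl
  have huU : u ∈ U := ⟨1, by rw [Ph_apply, map_one]; rfl⟩
  have hUmin : ∀ S : Submodule F V, u ∈ S → (∀ x ∈ S, T x ∈ S) → U ≤ S := by
    rintro S hS hST _ ⟨p, rfl⟩
    exact CycVec.aeval_mem hST hS p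
  have hUdim : finrank F U = d + 1 := by
    set L : degreeLT F (d + 1) →ₗ[F] V := (Ph T u) ∘ₗ (Submodule.subtype _) with hL
    have hLinj : Function.Injective L := by
      rw [← LinearMap.ker_eq_bot, LinearMap.ker_eq_bot']
      rintro ⟨p, hp⟩ h0
      apply Subtype.ext
      exact hsmall p (Polynomial.mem_degreeLT.1 hp) h0
    have hrange : LinearMap.range L = U := by
      apply le_antisymm
      · rintro _ ⟨p, rfl⟩
        exact ⟨p, rfl⟩
      · intro x hx
        obtain ⟨g, hg, rfl⟩ := hUmem x hx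
        exact ⟨⟨g, Polynomial.mem_degreeLT.2 hg⟩, rfl⟩
    rw [← hrange, LinearMap.finrank_range_of_inj hLinj, (Polynomial.degreeLTEquiv F (d + 1)).finrank_eq,
      Module.finrank_fin_fun]
  -- the functional
  obtain ⟨ξ, hξ1, hξ2⟩ : ∃ ξ : V →ₗ[F] F, ξ (aeval T (X ^ d : F[X]) u) ≠ 0 ∧
      ∀ q : F[X], q.degree < (d : WithBot ℕ) → ξ (aeval T q u) = 0 := by
    have hnot : aeval T (X ^ d : F[X]) u ∉ (degreeLT F d).map (Ph T u) := by
      rintro ⟨q, hq, hq'⟩
      have hq := Polynomial.mem_degreeLT.1 hq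
      have h1 : (X ^ d - q : F[X]) = 0 := by
        apply hsmall
        · refine lt_of_le_of_lt (Polynomial.degree_sub_le _ _) (max_lt ?_ ?_)
          · rw [Polynomial.degree_X_pow]; exact_mod_cast Nat.lt_succ_self d
          · exact hq.trans (by exact_mod_cast Nat.lt_succ_self d)
        · rw [map_sub, LinearMap.sub_apply, sub_eq_zero]
          exact hq'.symm
      rw [sub_eq_zero] at h1
      rw [← h1, Polynomial.degree_X_pow] at hq
      exact lt_irrefl _ hq
    obtain ⟨ξ, h1, h2⟩ := Submodule.exists_dual_map_eq_bot_of_notMem hnot inferInstance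
    refine ⟨ξ, h1, fun q hq => ?_⟩
    have h3 : ξ (aeval T q u) ∈ ((degreeLT F d).map (Ph T u)).map ξ :=
      ⟨_, ⟨q, Polynomial.mem_degreeLT.2 hq, rfl⟩, rfl⟩
    rw [h2] at h3
    exact (Submodule.mem_bot F).1 h3
  have hξ : ∀ h : F[X], h.degree < ((d + 1 : ℕ) : WithBot ℕ) →
      ξ (aeval T h u) = h.coeff d * ξ (aeval T (X ^ d : F[X]) u) := by
    intro h hh
    have h1 : (h - C (h.coeff d) * X ^ d).degree < (d : WithBot ℕ) := by
      rw [Polynomial.degree_lt_iff_coeff_zero]
      intro m hm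
      rw [coeff_sub, coeff_C_mul, coeff_X_pow]
      by_cases hmd : m = d
      · subst hmd; simp
      · rw [if_neg hmd, mul_zero, sub_zero]
        exact (Polynomial.degree_lt_iff_coeff_zero h (d + 1)).1 hh m (by omega)
    have h2 := hξ2 _ h1
    rw [map_sub, LinearMap.sub_apply, map_sub, sub_eq_zero] at h2
    rw [h2, map_mul, aeval_C, Module.End.mul_apply, Module.algebraMap_end_apply, map_smul, smul_eq_mul]
  set K : V →ₗ[F] (Fin (d + 1) → F) := LinearMap.pi (fun i => ξ ∘ₗ (T ^ (i : ℕ))) with hK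
  have hP : ∀ w ∈ LinearMap.ker K, ∀ p : F[X], ξ (aeval T p w) = 0 := by
    intro w hw p
    rw [hmod p w]
    have hnd : (p %ₘ f).natDegree < d + 1 := by
      by_cases h0 : p %ₘ f = 0
      · rw [h0]; simp
      · exact (Polynomial.natDegree_lt_iff_degree_lt h0).2 (hmoddeg p)
    rw [aeval_apply_eq_sum T w _ _ hnd, map_sum]
    apply Finset.sum_eq_zero
    intro i _
    have h1 : K w i = 0 := by rw [LinearMap.mem_ker.1 hw]; rfl
    rw [map_smul]
    have h2 : ξ ((T ^ (i : ℕ)) w) = 0 := h1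
    rw [h2, smul_zero]
  have hWT : ∀ x ∈ LinearMap.ker K, T x ∈ LinearMap.ker K := by
    intro x hx
    rw [LinearMap.mem_ker]
    funext i
    have h1 := hP x hx (X ^ ((i : ℕ) + 1))
    rw [map_pow, aeval_X, pow_succ, Module.End.mul_apply] at h1
    exact h1
  have hdisj : Disjoint U (LinearMap.ker K) := by
    rw [Submodule.disjoint_def]
    intro x hxU hxW
    obtain ⟨g, hg, rfl⟩ := hUmem x hxU
    by_contra hne
    have hg0 : g ≠ 0 := by
      rintro rfl; apply hne; simp
    have hj : g.natDegree ≤ d := by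
      have := (Polynomial.natDegree_lt_iff_degree_lt hg0).2 hg
      omega
    have h1 := hP _ hxW (X ^ (d - g.natDegree))
    rw [← Module.End.mul_apply, ← map_mul] at h1
    have h2 : (X ^ (d - g.natDegree) * g).degree < ((d + 1 : ℕ) : WithBot ℕ) := by
      rw [← Polynomial.natDegree_lt_iff_degree_lt (mul_ne_zero (pow_ne_zero _ X_ne_zero) hg0),
        Polynomial.natDegree_mul (pow_ne_zero _ X_ne_zero) hg0, natDegree_X_pow]
      omega
    rw [hξ _ h2] at h1
    rcases mul_eq_zero.1 h1 with h3 | h3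
    · have h4 : (X ^ (d - g.natDegree) * g).coeff d = g.leadingCoeff := by
        rw [Polynomial.coeff_X_pow_mul', if_pos (by omega)]
        congr 1
        omega
      rw [h4] at h3
      exact hg0 (Polynomial.leadingCoeff_eq_zero.1 h3)
    · exact hξ1 h3
  refine ⟨U, LinearMap.ker K, ⟨hdisj, ?_⟩, hUT, hWT, by rw [hUdim, hd], u, huU, hUmin⟩
  rw [codisjoint_iff]
  apply Submodule.eq_top_of_disjoint _ _ _ hdisj
  have h1 := LinearMap.finrank_range_add_finrank_ker K
  have h2 : finrank F (LinearMap.range K) ≤ d + 1 := by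
    refine (Submodule.finrank_le _).trans ?_
    rw [Module.finrank_fin_fun]
  omega

/-- cyclic summand with the minimal polynomial -/
theorem decompA (A : V ≃ₗ[F] V) (hV : 0 < finrank F V) :
    ∃ (U W : Submodule F V) (C : U ≃ₗ[F] U) (B : W ≃ₗ[F] W), Sim A (CovDefs.bs C B) ∧
      Cyc C (minpoly F A.toLinearMap) ∧ finrank F U + finrank F W = finrank F V ∧
      aeval B.toLinearMap (minpoly F A.toLinearMap) = 0 := by
  obtain ⟨U, W, hc, hU, hW, hdim, u, huU, hmin⟩ := decomp A.toLinearMap hV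
  have hint : IsIntegral F A.toLinearMap := Algebra.IsIntegral.isIntegral _
  refine ⟨U, W, rs A U hU, rs A W hW, sim_of_compl A hU hW hc, ⟨minpoly.monic hint, hdim.symm, ⟨⟨u, huU⟩, ?_⟩, ?_⟩,
    ?_, ?_⟩
  · intro S hS hST
    have h1 : U ≤ S.map U.subtype := by
      apply hmin
      · exact ⟨_, hS, rfl⟩
      · rintro _ ⟨x, hx, rfl⟩
        exact ⟨_, hST x hx, rfl⟩
    rw [eq_top_iff]
    rintro ⟨x, hx⟩ _
    obtain ⟨y, hy, hyx⟩ := h1 hx
    have : y = ⟨x, hx⟩ := Subtype.ext hyx
    rw [← this]; exact hy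
  · apply LinearMap.ext
    intro x
    apply Subtype.ext
    rw [rs_aeval, minpoly.aeval]
    rfl
  · exact Submodule.finrank_add_eq_of_isCompl hc
  · apply LinearMap.ext
    intro x
    apply Subtype.ext
    rw [rs_aeval, minpoly.aeval]
    rfl

end Restrict

section Cyclic

variable {V : Type u} [AddCommGroup V] [Module F V] [FiniteDimensional F V]

theorem Cyc.dvd {A : V ≃ₗ[F] V} {p q : F[X]} (hA : Cyc A p) (hq : aeval A.toLinearMap q = 0) : p ∣ q := by
  obtain ⟨h1, h2, ⟨v, hv⟩, h4⟩ := hA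
  have h5 : q %ₘ p = 0 := by
    apply hv.eq_zero_of_aeval
    · have h6 := Polynomial.degree_modByMonic_lt q h1
      rwa [Polynomial.degree_eq_natDegree h1.ne_zero, h2] at h6
    · have h6 := Polynomial.modByMonic_add_div q p
      have h7 : aeval A.toLinearMap (q %ₘ p) = 0 := by
        have h8 := congrArg (aeval A.toLinearMap) h6
        rw [map_add, map_mul, h4, zero_mul, add_zero, hq] at h8
        exact h8
      rw [h7]; rfl
  exact (Polynomial.modByMonic_eq_zero_iff_dvd h1).1 h5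

theorem Cyc.rk {A : V ≃ₗ[F] V} {p : F[X]} (hA : Cyc A p) (l : F) : finrank F V ≤ 1 + CovSTR.rk A l := by
  obtain ⟨h1, h2, ⟨v, hv⟩, h4⟩ := hA
  have h5 : Submodule.span F {v} ⊔ LinearMap.range (A.toLinearMap - l • LinearMap.id) = ⊤ := by
    apply hv
    · exact Submodule.mem_sup_left (Submodule.mem_span_singleton_self v)
    · intro w hw
      have h6 : A.toLinearMap w = (A.toLinearMap - l • LinearMap.id : V →ₗ[F] V) w + l • w := by simp
      rw [h6]
      exact Submodule.add_mem _ (Submodule.mem_sup_right ⟨w, rfl⟩) (Submodule.smul_mem _ _ hw)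
  have h6 := Submodule.finrank_add_le_finrank_add_finrank (Submodule.span F {v})
    (LinearMap.range (A.toLinearMap - l • LinearMap.id))
  rw [h5, finrank_top] at h6
  have h7 : finrank F (Submodule.span F {v}) ≤ 1 := by
    have := finrank_span_le_card (R := F) ({v} : Set V)
    simpa using this
  unfold CovSTR.rk
  omega

/-- scalar operator -/
def Scal (A : V ≃ₗ[F] V) : Prop := ∃ c : F, ∀ x, A x = c • x

theorem Scal.eq_sc {A : V ≃ₗ[F] V} (h : Scal A) (hV : 0 < finrank F V) : ∃ l : Fˣ, A = sc V l := by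
  obtain ⟨c, hc⟩ := h
  have : Nontrivial V := Module.finrank_pos_iff.1 hV
  obtain ⟨x, hx⟩ := exists_ne (0 : V)
  have hc0 : c ≠ 0 := by
    rintro rfl
    have := hc x
    rw [zero_smul] at this
    exact hx (A.map_eq_zero_iff.1 this)
  refine ⟨Units.mk0 c hc0, ?_⟩
  ext y
  rw [hc]
  rfl

theorem two_le_minpoly {A : V ≃ₗ[F] V} (h : ¬ Scal A) : 2 ≤ (minpoly F A.toLinearMap).natDegree := by
  have hV : Nontrivial V := by
    by_contra h0
    rw [not_nontrivial_iff_subsingleton] at h0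
    exact h ⟨0, fun x => Subsingleton.elim _ _⟩
  have hint : IsIntegral F A.toLinearMap := Algebra.IsIntegral.isIntegral _
  have h1 := minpoly.natDegree_pos hint
  by_contra h2
  have h3 : (minpoly F A.toLinearMap).natDegree = 1 := by omega
  apply h
  have h4 := (minpoly.monic hint).eq_X_add_C h3
  have h5 := minpoly.aeval F A.toLinearMap
  rw [h4, map_add, aeval_X, aeval_C] at h5
  refine ⟨-(minpoly F A.toLinearMap).coeff 0, fun x => ?_⟩
  have h6 := congrArg (fun T : V →ₗ[F] V => T x) h5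
  simp only [LinearMap.add_apply, Module.algebraMap_end_apply, LinearMap.zero_apply] at h6
  rw [neg_smul]
  exact eq_neg_of_add_eq_zero_left h6

theorem two_le_of_aeval {A : V ≃ₗ[F] V} (h : ¬ Scal A) {f : F[X]} (hf : f.Monic)
    (h0 : aeval A.toLinearMap f = 0) : 2 ≤ f.natDegree :=
  (two_le_minpoly h).trans (Polynomial.natDegree_le_of_dvd (minpoly.dvd F _ h0) hf.ne_zero)

theorem scal_of_rk {A : V ≃ₗ[F] V} {l : F} (h : CovSTR.rk A l = 0) : ∀ x, A x = l • x := by
  unfold CovSTR.rk at h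
  rw [Submodule.finrank_eq_zero, LinearMap.range_eq_bot] at h
  intro x
  have h1 := congrArg (fun T : V →ₗ[F] V => T x) h
  simp only [LinearMap.sub_apply, LinearMap.smul_apply, LinearMap.id_apply, LinearMap.zero_apply] at h1
  exact sub_eq_zero.1 h1

theorem eval_eq_zero {A : V ≃ₗ[F] V} {l : F} (hV : 0 < finrank F V) (h : ∀ x, A x = l • x) {f : F[X]}
    (h0 : aeval A.toLinearMap f = 0) : f.eval l = 0 := by
  have : Nontrivial V := Module.finrank_pos_iff.1 hV
  obtain ⟨x, hx⟩ := exists_ne (0 : V)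
  have h1 : ∀ q : F[X], aeval A.toLinearMap q x = q.eval l • x := by
    intro q
    induction q using Polynomial.induction_on' with
    | add p q hp hq => simp [hp, hq, add_smul]
    | monomial n a =>
      rw [aeval_monomial, eval_monomial]
      simp only [Module.End.mul_apply, Module.algebraMap_end_apply]
      rw [mul_smul]
      congr 1
      induction n with
      | zero => simp
      | succ n ih =>
        rw [pow_succ', Module.End.mul_apply, ih, map_smul, pow_succ, mul_smul]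
        congr 1
        exact h x
  have h2 := h1 f
  rw [h0] at h2
  exact (smul_eq_zero.1 h2.symm).resolve_right hx

/-- in dimension two a non-scalar operator is cyclic -/
theorem cyc_of_finrank {A : V ≃ₗ[F] V} (h : finrank F V ≤ (minpoly F A.toLinearMap).natDegree)
    (hV : 0 < finrank F V) : Cyc A (minpoly F A.toLinearMap) := by
  obtain ⟨U, W, C, B, hs, hC, hdim, -⟩ := decompA A hV
  have h1 := hC.2.1
  have h2 : finrank F W = 0 := by omega
  have : Subsingleton W := Module.finrank_zero_iff.1 h2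
  have h3 : Sim A C := Sim.trans hs (Sim.trans (bs_comm C B) (Sim.symm (bs_zero C B)))
  exact Cyc.of_sim (Sim.symm h3) hC

end Cyclic

/-! ### Transport to submodules -/

section Final

variable {V : Type u} [AddCommGroup V] [Module F V] [FiniteDimensional F V]

theorem toSub {Y : Type u} [AddCommGroup Y] [Module F Y] (j : Y →ₗ[F] V) (hj : Function.Injective j) :
    ∃ (S : Submodule F V) (e : Y ≃ₗ[F] S), finrank F S = finrank F Y ∧
      ∀ B : Y ≃ₗ[F] Y, Sim B (e.symm.trans (B.trans e)) := by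
  refine ⟨LinearMap.range j, LinearEquiv.ofInjective j hj, (LinearEquiv.ofInjective j hj).finrank_eq.symm, fun B => ?_⟩
  exact ⟨LinearEquiv.ofInjective j hj, fun x => by simp⟩

theorem sim_sc {X Y : Type u} [AddCommGroup X] [Module F X] [AddCommGroup Y] [Module F Y] (e : X ≃ₗ[F] Y) (l : Fˣ) :
    Sim (sc X l) (sc Y l) := ⟨e, fun x => by
  show e (l • x) = l • e x
  exact e.map_smul _ _⟩

theorem case4 {A : V ≃ₗ[F] V} {U W : Type u} [AddCommGroup U] [Module F U] [FiniteDimensional F U]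
    [AddCommGroup W] [Module F W] [FiniteDimensional F W] {C : U ≃ₗ[F] U} {A₂ : W ≃ₗ[F] W} {f : F[X]}
    (hs : Sim A (CovDefs.bs C A₂)) (h2 : 2 ≤ finrank F U) (h3 : 3 ≤ finrank F W) (hC : Cyc C f) (hS : ¬ Slow A₂) :
    (∃ (U W : Submodule F V) (C : U ≃ₗ[F] U) (A₂ : W ≃ₗ[F] W) (f : F[X]),
      Sim A (CovDefs.bs C A₂) ∧ 2 ≤ finrank F U ∧ 3 ≤ finrank F W ∧ Cyc C f ∧ ¬ Slow A₂) := by
  obtain ⟨e, he⟩ := hs
  obtain ⟨S, e₁, hd₁, hB₁⟩ := toSub (e.symm.toLinearMap ∘ₗ LinearMap.inl F U W)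
    (e.symm.injective.comp LinearMap.inl_injective)
  obtain ⟨T, e₂, hd₂, hB₂⟩ := toSub (e.symm.toLinearMap ∘ₗ LinearMap.inr F U W)
    (e.symm.injective.comp LinearMap.inr_injective)
  refine ⟨S, T, _, _, f, Sim.trans ⟨e, he⟩ (Sim.bs (hB₁ C) (hB₂ A₂)), by omega, by omega, Cyc.of_sim (hB₁ C) hC, ?_⟩
  rintro ⟨l, hl⟩
  apply hS
  refine ⟨l, ?_⟩
  have h1 := rk_sim (hB₂ A₂) l
  unfold rk at h1
  rw [h1]; exact hl

theorem case2 {A : V ≃ₗ[F] V} {E U : Type u} [AddCommGroup E] [Module F E] [FiniteDimensional F E]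
    [AddCommGroup U] [Module F U] [FiniteDimensional F U] {C : U ≃ₗ[F] U} {l : Fˣ} {f : F[X]}
    (hs : Sim A (CovDefs.bs (sc E l) C)) (h1 : 1 ≤ finrank F E) (h3 : 3 ≤ finrank F U) (hC : Cyc C f)
    (hf : f.eval (l : F) = 0) :
    (∃ (E U : Submodule F V) (l : Fˣ) (C : U ≃ₗ[F] U) (f : F[X]), Sim A (CovDefs.bs (sc E l) C) ∧
      1 ≤ finrank F E ∧ 3 ≤ finrank F U ∧ Cyc C f ∧ f.eval (l : F) = 0) := by
  obtain ⟨e, he⟩ := hs
  obtain ⟨S, e₁, hd₁, hB₁⟩ := toSub (e.symm.toLinearMap ∘ₗ LinearMap.inl F E U)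
    (e.symm.injective.comp LinearMap.inl_injective)
  obtain ⟨T, e₂, hd₂, hB₂⟩ := toSub (e.symm.toLinearMap ∘ₗ LinearMap.inr F E U)
    (e.symm.injective.comp LinearMap.inr_injective)
  exact ⟨S, T, l, _, f, Sim.trans ⟨e, he⟩ (Sim.bs (sim_sc e₁ l) (hB₂ C)), by omega, by omega,
    Cyc.of_sim (hB₂ C) hC, hf⟩

theorem case3 {A : V ≃ₗ[F] V} {E U U' : Type u} [AddCommGroup E] [Module F E] [FiniteDimensional F E]
    [AddCommGroup U] [Module F U] [FiniteDimensional F U] [AddCommGroup U'] [Module F U'] [FiniteDimensional F U']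
    {C : U ≃ₗ[F] U} {C' : U' ≃ₗ[F] U'} {l : Fˣ} {f : F[X]}
    (hs : Sim A (CovDefs.bs (sc E l) (CovDefs.bs C C'))) (h2 : finrank F U = 2) (h2' : finrank F U' = 2)
    (hC : Cyc C f) (hC' : Cyc C' f) (hf : 1 ≤ finrank F E → f.eval (l : F) = 0) :
    (∃ (E U U' : Submodule F V) (l : Fˣ) (C : U ≃ₗ[F] U) (C' : U' ≃ₗ[F] U') (f : F[X]),
      Sim A (CovDefs.bs (sc E l) (CovDefs.bs C C')) ∧ finrank F U = 2 ∧ finrank F U' = 2 ∧ Cyc C f ∧ Cyc C' f ∧
      (1 ≤ finrank F E → f.eval (l : F) = 0)) := by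
  obtain ⟨e, he⟩ := hs
  obtain ⟨S, e₁, hd₁, hB₁⟩ := toSub (e.symm.toLinearMap ∘ₗ LinearMap.inl F E (U × U'))
    (e.symm.injective.comp LinearMap.inl_injective)
  obtain ⟨T, e₂, hd₂, hB₂⟩ := toSub (e.symm.toLinearMap ∘ₗ LinearMap.inr F E (U × U') ∘ₗ LinearMap.inl F U U')
    (e.symm.injective.comp (LinearMap.inr_injective.comp LinearMap.inl_injective))
  obtain ⟨T', e₃, hd₃, hB₃⟩ := toSub (e.symm.toLinearMap ∘ₗ LinearMap.inr F E (U × U') ∘ₗ LinearMap.inr F U U')
    (e.symm.injective.comp (LinearMap.inr_injective.comp LinearMap.inr_injective))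
  exact ⟨S, T, T', l, _, _, f, Sim.trans ⟨e, he⟩ (Sim.bs (sim_sc e₁ l) (Sim.bs (hB₂ C) (hB₃ C'))), by omega, by omega,
    Cyc.of_sim (hB₂ C) hC, Cyc.of_sim (hB₃ C') hC', fun h => hf (by omega)⟩

/-- **STR** : structure theorem -/
theorem STR (h3 : 3 ≤ finrank F V) (A : V ≃ₗ[F] V) (hA : ¬ Slow A) :
    (∃ p, Cyc A p) ∨
    (∃ (E U : Submodule F V) (l : Fˣ) (C : U ≃ₗ[F] U) (f : F[X]), Sim A (bs (sc E l) C) ∧
      1 ≤ finrank F E ∧ 3 ≤ finrank F U ∧ Cyc C f ∧ f.eval (l : F) = 0) ∨
    (∃ (E U U' : Submodule F V) (l : Fˣ) (C : U ≃ₗ[F] U) (C' : U' ≃ₗ[F] U') (f : F[X]),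
      Sim A (bs (sc E l) (bs C C')) ∧ finrank F U = 2 ∧ finrank F U' = 2 ∧ Cyc C f ∧ Cyc C' f ∧
      (1 ≤ finrank F E → f.eval (l : F) = 0)) ∨
    (∃ (U W : Submodule F V) (C : U ≃ₗ[F] U) (A₂ : W ≃ₗ[F] W) (f : F[X]),
      Sim A (bs C A₂) ∧ 2 ≤ finrank F U ∧ 3 ≤ finrank F W ∧ Cyc C f ∧ ¬ Slow A₂) := by
  obtain ⟨U, W, C, B, hs, hC, hdim, hB⟩ := decompA A (by omega)
  set f := minpoly F A.toLinearMap with hf
  have hfd := hC.2.1
  have hfm := hC.1
  rcases Nat.eq_zero_or_pos (finrank F W) with hW0 | hW0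
  · left
    exact ⟨_, cyc_of_finrank (by rw [← hf]; omega) (by omega)⟩
  by_cases hsc : Scal B
  · obtain ⟨l, hl⟩ := hsc.eq_sc hW0
    have hl' : ∀ x, B x = (l : F) • x := fun x => by rw [hl]; rfl
    have hev := eval_eq_zero hW0 hl' hB
    have hd3 : 3 ≤ finrank F U := by
      by_contra hlt
      apply hA
      refine ⟨l, ?_⟩
      have h1 : rk A l = rk C l + rk B l := by rw [rk_sim hs, rk_bs]
      have h2 : rk B l = 0 := by
        unfold rk
        rw [Submodule.finrank_eq_zero, LinearMap.range_eq_bot]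
        ext x
        have := hl' x
        simp [this]
      have h4 : rk C l < finrank F U := by
        unfold rk
        have h5 := LinearMap.finrank_range_add_finrank_ker (C.toLinearMap - (l : F) • LinearMap.id)
        have h6 : 0 < finrank F (LinearMap.ker (C.toLinearMap - (l : F) • LinearMap.id)) := by
          by_contra h7
          have h7' : finrank F (LinearMap.ker (C.toLinearMap - (l : F) • LinearMap.id)) = 0 := by omega
          rw [Submodule.finrank_eq_zero] at h7'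
          obtain ⟨g, hg⟩ := Polynomial.dvd_iff_isRoot.2 hev
          have hC4 := hC.2.2.2
          rw [hg, map_mul] at hC4
          have h8 : aeval C.toLinearMap g = 0 := by
            apply LinearMap.ext
            intro x
            have h9 : aeval C.toLinearMap g x ∈ LinearMap.ker (C.toLinearMap - (l : F) • LinearMap.id) := by
              rw [LinearMap.mem_ker]
              have h10 := congrArg (fun T : U →ₗ[F] U => T x) hC4
              simp only [Module.End.mul_apply, map_sub, aeval_X, aeval_C, LinearMap.sub_apply,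
                Module.algebraMap_end_apply, LinearMap.zero_apply] at h10
              simpa using h10
            rw [h7'] at h9
            simpa using h9
          have h11 := Cyc.dvd hC h8
          have h12 : g ≠ 0 := by
            rintro rfl
            rw [mul_zero] at hg
            exact hfm.ne_zero hg
          have h13 := Polynomial.natDegree_le_of_dvd h11 h12
          have h14 : f.natDegree = 1 + g.natDegree := by
            rw [hg, Polynomial.natDegree_mul (X_sub_C_ne_zero _) h12, natDegree_X_sub_C]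
          omega
        omega
      show rk A l ≤ 1
      omega
    right; left
    refine case2 (E := W) (U := U) (C := C) (l := l) (f := f) ?_ hW0 hd3 hC hev
    rw [← hl]
    exact Sim.trans hs (bs_comm C B)
  have hU2 : 2 ≤ finrank F U := by rw [← hfd]; exact two_le_of_aeval hsc hfm hB
  have hB2 := two_le_minpoly hsc
  obtain ⟨U', E, C', B', hs', hC', hdim', hB'⟩ := decompA B hW0
  set g := minpoly F B.toLinearMap with hg
  have hgf : g ∣ f := minpoly.dvd F _ hB
  have hgd := hC'.2.1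
  by_cases hW3 : 3 ≤ finrank F W
  swap
  · -- `dim W = 2`
    have hW2 : finrank F W = 2 := by omega
    have hBc : Cyc B g := cyc_of_finrank (by rw [← hg]; omega) hW0
    by_cases hU3 : 3 ≤ finrank F U
    · right; right; right
      refine case4 (U := W) (W := U) (C := B) (A₂ := C) (f := g) (Sim.trans hs (bs_comm C B)) (by omega) hU3 hBc ?_
      rintro ⟨l, hl⟩
      have h1 := Cyc.rk hC l
      unfold rk at h1
      omega
    · have hfg : g = f := by
        symm; apply Polynomial.eq_of_monic_of_dvd_of_natDegree_le hBc.1 hfm hgf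
        rw [hfd, hBc.2.1]; omega
      right; right; left
      refine case3 (E := (⊥ : Submodule F V)) (U := U) (U' := W) (C := C) (C' := B) (l := 1) (f := f)
        (Sim.trans hs (bs_zero _ _)) (by omega) hW2 hC (hfg ▸ hBc) ?_
      intro h
      simp at h
  by_cases hslow : Slow B
  swap
  · right; right; right
    exact case4 hs hU2 hW3 hC hslow
  -- `B` is slow
  obtain ⟨l₀, hl₀⟩ := hslow
  have hrB : rk B l₀ ≤ 1 := hl₀
  rw [rk_sim hs', rk_bs] at hrB
  have hrC' := Cyc.rk hC' l₀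
  have hU'2 : finrank F U' = 2 := by omega
  have hrB' : rk B' l₀ = 0 := by omega
  have hEpos : 0 < finrank F E := by omega
  have hsB' : Scal B' := ⟨l₀, scal_of_rk hrB'⟩
  obtain ⟨l, hl⟩ := hsB'.eq_sc hEpos
  have hl' : ∀ x, B' x = (l : F) • x := fun x => by rw [hl]; rfl
  have hevg : g.eval (l : F) = 0 := eval_eq_zero hEpos hl' hB'
  have hsA : Sim A (bs C (bs C' B')) := Sim.trans hs (Sim.bs (Sim.rfl' C) hs')
  by_cases hU3 : 3 ≤ finrank F U
  · right; right; right
    refine case4 (U := U') (W := E × U) (C := C') (A₂ := bs B' C) (f := g) ?_ (by omega) ?_ hC' ?_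
    · exact Sim.trans hsA (Sim.trans (bs_comm _ _) (bs_assoc _ _ _))
    · rw [Module.finrank_prod]; omega
    · rintro ⟨m, hm⟩
      have h1 : rk (bs B' C) m ≤ 1 := hm
      rw [rk_bs] at h1
      have h2 := Cyc.rk hC m
      omega
  · have hfg : g = f := by
      symm; apply Polynomial.eq_of_monic_of_dvd_of_natDegree_le hC'.1 hfm hgf
      rw [hfd, hC'.2.1]; omega
    right; right; left
    refine case3 (E := E) (U := U) (U' := U') (C := C) (C' := C') (l := l) (f := f) ?_ (by omega) hU'2 hC (hfg ▸ hC') ?_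
    · rw [← hl]
      exact Sim.trans hsA (Sim.trans (Sim.symm (bs_assoc _ _ _)) (bs_comm _ _))
    · intro _
      rw [← hfg]; exact hevg

end Final

end Cfsg.Agent.Lib.CovSTR
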