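import Mathlib
import Cfsg.Agent.Lib.CovBas2

set_option autoImplicit false

/-!
Piece W of the covering number of `PSL_n(F)` (S2483): windows.
-/

namespace Cfsg.Agent.Lib.CovW

open Module Polynomial Cfsg.Agent.Lib.CyclicProd Cfsg.Agent.Lib.CovDefs

universe u

variable {F : Type u} [Field F]

/-- placing a window by pole placement -/
theorem place {V X1 E2 : Type u} [AddCommGroup V] [Module F V] [FiniteDimensional F V]
    [AddCommGroup X1] [Module F X1] [FiniteDimensional F X1]
    [AddCommGroup E2] [Module F E2] [FiniteDimensional F E2]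
    {D : X1 ≃ₗ[F] X1} {p : F[X]} (hD : Cyc D p) (hpos : 0 < finrank F X1) (mu : Fˣ)
    {X Q : Submodule F V} (hc : IsCompl X Q) (hX : finrank F X = finrank F X1)
    (hQ : finrank F Q = finrank F E2)
    (L : V →ₗ[F] V) (hLX : ∀ x ∈ X, L x ∈ X) (hLQ : ∀ x ∈ Q, L x = (mu : F) • x)
    (v : V) (hv : v ∈ X)
    (hcyc : ∀ W : Submodule F V, v ∈ W → (∀ x ∈ W, x ∈ X → L x ∈ W) → X ≤ W) :
    ∃ (α : V →ₗ[F] F) (e : (E2 × X1) ≃ₗ[F] V), (∀ x ∈ Q, α x = 0) ∧
      ∀ z, e (bs (sc E2 mu) D z) = L (e z) + α (e z) • v := by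
  obtain ⟨hm, hd, ⟨v1, hv1⟩, h0⟩ := hD
  let LX : X →ₗ[F] X := L.restrict hLX
  have hLXc : CycVec LX ⟨v, hv⟩ := by
    intro W' hvW hW
    have h1 : X ≤ W'.map X.subtype := by
      apply hcyc
      · exact ⟨⟨v, hv⟩, hvW, rfl⟩
      · rintro _ ⟨x, hx, rfl⟩ _
        exact ⟨LX x, hW x hx, rfl⟩
    rw [eq_top_iff]
    intro x _
    obtain ⟨y, hy, hyx⟩ := h1 x.2
    have : y = x := Subtype.ext hyx
    rwa [← this]
  obtain ⟨ζ, hζ1, hζ2⟩ := pole' hLXc (by rw [hX]; exact hpos) hm (by rw [hd, hX])
  obtain ⟨P, hP⟩ := similar_of_cycVec hv1 hζ1 hm hd (by rw [hd, hX]) h0 hζ2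
  let g : E2 ≃ₗ[F] Q := LinearEquiv.ofFinrankEq E2 Q hQ.symm
  let e : (E2 × X1) ≃ₗ[F] V := (LinearEquiv.prodCongr g P).trans
    (Submodule.prodEquivOfIsCompl Q X hc.symm)
  have he : ∀ z, e z = (g z.1 : V) + (P z.2 : V) := by
    intro z
    exact Submodule.coe_prodEquivOfIsCompl' Q X hc.symm _
  refine ⟨ζ ∘ₗ X.projectionOnto Q hc, e, ?_, ?_⟩
  · intro x hx
    rw [LinearMap.comp_apply, (Submodule.projectionOnto_apply_eq_zero_iff hc).2 hx, map_zero]
  · intro z
    have h1 : X.projectionOnto Q hc (e z) = P z.2 := by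
      rw [he, map_add, Submodule.projectionOnto_apply_right, zero_add,
        Submodule.projectionOnto_apply_left]
    have h2 : g (mu • z.1) = (mu : F) • g z.1 := by
      rw [← map_smul]
      rfl
    have h3 : ((P (D z.2) : X) : V) = L (P z.2) + ζ (P z.2) • v := by
      have := hP z.2
      rw [LinearEquiv.coe_coe] at this
      rw [this]
      rfl
    rw [LinearMap.comp_apply, h1, he z, map_add, hLQ _ (g z.1).2, bs_apply, he]
    rw [h3, add_assoc]
    congr 1
    exact congrArg Subtype.val h2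

section Tri

variable {V : Type u} [AddCommGroup V] [Module F V]

/-- span of `e i`, `j ≤ i` -/
def S (e : ℕ → V) (j : ℕ) : Submodule F V := Submodule.span F (e '' {i | j ≤ i})

/-- span of `e i`, `i < j` -/
def B (e : ℕ → V) (j : ℕ) : Submodule F V := Submodule.span F (e '' {i | i < j})

theorem mem_S (e : ℕ → V) {i j : ℕ} (h : j ≤ i) : e i ∈ S (F := F) e j :=
  Submodule.subset_span ⟨i, h, rfl⟩

theorem mem_B (e : ℕ → V) {i j : ℕ} (h : i < j) : e i ∈ B (F := F) e j :=
  Submodule.subset_span ⟨i, h, rfl⟩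

theorem S_le {e : ℕ → V} {j : ℕ} {W : Submodule F V} (h : ∀ i, j ≤ i → e i ∈ W) :
    S (F := F) e j ≤ W := by
  refine Submodule.span_le.2 ?_
  rintro _ ⟨i, hi, rfl⟩
  exact h i hi

theorem B_le {e : ℕ → V} {j : ℕ} {W : Submodule F V} (h : ∀ i, i < j → e i ∈ W) :
    B (F := F) e j ≤ W := by
  refine Submodule.span_le.2 ?_
  rintro _ ⟨i, hi, rfl⟩
  exact h i hi

theorem S_anti (e : ℕ → V) {i j : ℕ} (h : i ≤ j) : S (F := F) e j ≤ S e i :=
  S_le fun _ hk => mem_S e (h.trans hk)

theorem tri {e : ℕ → V} {n t : ℕ} (hn : ∀ i, n ≤ i → e i = 0) (N : V →ₗ[F] V)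
    (hN : ∀ i, t ≤ i → ∃ c : F, c ≠ 0 ∧ N (e i) - c • e (i + 1) ∈ S (F := F) e (i + 2))
    {W : Submodule F V} (hW : ∀ x ∈ W, x ∈ S (F := F) e t → N x ∈ W) {v : V} (hv : v ∈ W)
    {c : F} (hc : c ≠ 0) (hvc : v - c • e t ∈ S (F := F) e (t + 1)) : S e t ≤ W := by
  have hNS : ∀ i, t ≤ i → ∀ x ∈ S (F := F) e i, N x ∈ S (F := F) e (i + 1) := by
    intro i hi x hx
    have : S (F := F) e i ≤ (S e (i + 1)).comap N := by
      apply S_le
      intro j hj
      obtain ⟨c, _, h⟩ := hN j (hi.trans hj)
      rw [Submodule.mem_comap]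
      have h1 := Submodule.add_mem _ (S_anti e (by omega : i + 1 ≤ j + 2) h)
        (Submodule.smul_mem _ c (mem_S e (by omega : i + 1 ≤ j + 1)))
      rwa [sub_add_cancel] at h1
    exact this hx
  have h1 : ∀ j, ∃ y ∈ W, ∃ c : F, c ≠ 0 ∧ y - c • e (t + j) ∈ S (F := F) e (t + j + 1) := by
    intro j
    induction j with
    | zero => exact ⟨v, hv, c, hc, hvc⟩
    | succ j ih =>
      obtain ⟨y, hy, c, hc, h⟩ := ih
      have hyS : y ∈ S (F := F) e (t + j) := by
        have := Submodule.add_mem _ (S_anti e (Nat.le_succ _) h)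
          (Submodule.smul_mem _ c (mem_S e le_rfl))
        rwa [sub_add_cancel] at this
      obtain ⟨c', hc', h'⟩ := hN (t + j) (Nat.le_add_right _ _)
      refine ⟨N y, hW y hy (S_anti e (Nat.le_add_right _ _) hyS), c * c', mul_ne_zero hc hc', ?_⟩
      have h2 := hNS (t + j + 1) (by omega) _ h
      have h3 := Submodule.add_mem _ h2 (Submodule.smul_mem _ c h')
      have h4 : N (y - c • e (t + j)) + c • (N (e (t + j)) - c' • e (t + j + 1)) =
          N y - (c * c') • e (t + (j + 1)) := by
        rw [map_sub, map_smul, smul_sub, smul_smul]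
        have : t + j + 1 = t + (j + 1) := rfl
        rw [this]
        abel
      rw [h4] at h3
      exact h3
  have h2 : ∀ k j, n ≤ j + k → t ≤ j → S (F := F) e j ≤ W := by
    intro k
    induction k with
    | zero =>
      intro j hj _
      apply S_le
      intro i hi
      rw [hn i (by omega)]
      exact W.zero_mem
    | succ k ih =>
      intro j hj htj
      have h3 := ih (j + 1) (by omega) (by omega)
      obtain ⟨y, hy, c, hc, h⟩ := h1 (j - t)
      have htj' : t + (j - t) = j := by omega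
      rw [htj'] at h
      have h4 : e j ∈ W := by
        have h5 := W.sub_mem hy (h3 h)
        rw [sub_sub_cancel] at h5
        have h6 := W.smul_mem c⁻¹ h5
        rwa [smul_smul, inv_mul_cancel₀ hc, one_smul] at h6
      apply S_le
      intro i hi
      rcases Nat.eq_or_lt_of_le hi with h5 | h5
      · rw [← h5]; exact h4
      · exact h3 (mem_S e h5)
  exact h2 n t (by omega) le_rfl

end Tri

section Basis

variable {V : Type u} [AddCommGroup V] [Module F V] [FiniteDimensional F V]

/-- extension of a basis by zero -/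
noncomputable def eb {n : ℕ} (b : Basis (Fin n) F V) (i : ℕ) : V :=
  if h : i < n then b ⟨i, h⟩ else 0

omit [FiniteDimensional F V] in
theorem eb_of_le {n : ℕ} (b : Basis (Fin n) F V) (i : ℕ) (h : n ≤ i) : eb b i = 0 :=
  dif_neg (by omega)

omit [FiniteDimensional F V] in
theorem eb_fin {n : ℕ} (b : Basis (Fin n) F V) (i : Fin n) : eb b i = b i :=
  dif_pos i.2

omit [FiniteDimensional F V] in
theorem B_top {n : ℕ} (b : Basis (Fin n) F V) {W : Submodule F V}
    (h : ∀ i, eb b i ∈ W) : W = ⊤ := by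
  rw [eq_top_iff, ← b.span_eq, Submodule.span_le]
  rintro _ ⟨i, rfl⟩
  rw [← eb_fin]
  exact h i

omit [FiniteDimensional F V] in
theorem exists_map {n : ℕ} (b : Basis (Fin n) F V) (g : ℕ → V) (hg : ∀ i, n ≤ i → g i = 0) :
    ∃ L : V →ₗ[F] V, ∀ i, L (eb b i) = g i := by
  refine ⟨b.constr F fun i : Fin n => g i, fun i => ?_⟩
  by_cases h : i < n
  · have := b.constr_basis F (fun i : Fin n => g i) ⟨i, h⟩
    rw [← eb_fin] at this
    exact this
  · rw [eb_of_le b i (by omega), map_zero, hg i (by omega)]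

omit [FiniteDimensional F V] in
theorem isCompl_BS {n : ℕ} (b : Basis (Fin n) F V) (s : ℕ) :
    IsCompl (B (F := F) (eb b) s) (S (eb b) s) := by
  constructor
  · have h := b.linearIndependent.disjoint_span_image
      (s := {i : Fin n | (i : ℕ) < s}) (t := {i : Fin n | s ≤ (i : ℕ)}) (by
        rw [Set.disjoint_left]
        intro x hx hx'
        have h1 : (x : ℕ) < s := hx
        have h2 : s ≤ (x : ℕ) := hx'
        omega)
    refine h.mono ?_ ?_
    · apply B_le
      intro i hi
      by_cases hin : i < n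
      · exact Submodule.subset_span ⟨⟨i, hin⟩, hi, (eb_fin b ⟨i, hin⟩).symm⟩
      · rw [eb_of_le b i (by omega)]
        exact Submodule.zero_mem _
    · apply S_le
      intro i hi
      by_cases hin : i < n
      · exact Submodule.subset_span ⟨⟨i, hin⟩, hi, (eb_fin b ⟨i, hin⟩).symm⟩
      · rw [eb_of_le b i (by omega)]
        exact Submodule.zero_mem _
  · rw [codisjoint_iff]
    apply B_top b
    intro i
    by_cases hi : i < s
    · exact Submodule.mem_sup_left (mem_B _ hi)
    · exact Submodule.mem_sup_right (mem_S _ (by omega))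

omit [FiniteDimensional F V] in
theorem finrank_B {n : ℕ} (b : Basis (Fin n) F V) {s : ℕ} (hs : s ≤ n) :
    finrank F (B (F := F) (eb b) s) = s := by
  have h1 : B (F := F) (eb b) s =
      Submodule.span F (Set.range fun j : Fin s => b (Fin.castLE hs j)) := by
    apply le_antisymm
    · apply B_le
      intro i hi
      exact Submodule.subset_span ⟨⟨i, hi⟩, (eb_fin b ⟨i, by omega⟩).symm⟩
    · rw [Submodule.span_le]
      rintro _ ⟨j, rfl⟩
      have := eb_fin b (Fin.castLE hs j)
      simp only [SetLike.mem_coe]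
      rw [← this]
      exact mem_B _ j.2
  rw [h1, finrank_span_eq_card]
  · simp
  · exact b.linearIndependent.comp _ (Fin.castLE_injective hs)

theorem finrank_S {n : ℕ} (b : Basis (Fin n) F V) {s : ℕ} (hs : s ≤ n) :
    finrank F (S (F := F) (eb b) s) + s = n := by
  have h1 := Submodule.finrank_add_eq_of_isCompl (isCompl_BS b s)
  rw [finrank_B b hs, Module.finrank_eq_card_basis b, Fintype.card_fin] at h1
  omega

omit [FiniteDimensional F V] in
theorem exists_w {e : ℕ → V} {a t : ℕ} (L : V →ₗ[F] V)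
    (h1 : ∀ i, t ≤ i → i + 1 < a → L (e i) = e i + e (i + 1)) (h2 : ∀ i, i + 1 = a → L (e i) = e i) :
    ∀ k s, t ≤ s → s + k + 1 = a → ∃ w, L w = e s ∧ w - e s ∈ S (F := F) e (s + 1) := by
  intro k
  induction k with
  | zero =>
    intro s _ hs
    exact ⟨e s, h2 s (by omega), by rw [sub_self]; exact Submodule.zero_mem _⟩
  | succ k ih =>
    intro s hts hs
    obtain ⟨w, hw1, hw2⟩ := ih (s + 1) (by omega) (by omega)
    refine ⟨e s - w, ?_, ?_⟩
    · rw [map_sub, h1 s hts (by omega), hw1, add_sub_cancel_right]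
    · have h3 := Submodule.add_mem _ (S_anti e (Nat.le_succ _) hw2) (mem_S e le_rfl)
      rw [sub_add_cancel] at h3
      rw [sub_sub_cancel_left]
      exact Submodule.neg_mem _ h3

/-- the two operator lemma -/
theorem key {n a t : ℕ} (hta : t < a) (han : a ≤ n) (b : Basis (Fin n) F V) (mu l : Fˣ)
    {X1 E2 U1 E : Type u} [AddCommGroup X1] [Module F X1] [FiniteDimensional F X1]
    [AddCommGroup E2] [Module F E2] [FiniteDimensional F E2]
    [AddCommGroup U1] [Module F U1] [FiniteDimensional F U1]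
    [AddCommGroup E] [Module F E] [FiniteDimensional F E]
    {D : X1 ≃ₗ[F] X1} {p : F[X]} (hD : Cyc D p) {C : U1 ≃ₗ[F] U1} {f : F[X]} (hC : Cyc C f)
    (hX1 : finrank F X1 = a) (hE2 : finrank F E2 + a = n) (hE : finrank F E = t)
    (hU : finrank F U1 + t = n) :
    ∃ (e1 : (E2 × X1) ≃ₗ[F] V) (e2 : (E × U1) ≃ₗ[F] V) (v : V),
      CycVec (((e1.symm.trans (bs (sc E2 mu) D)).trans e1) *
        ((e2.symm.trans (bs (sc E l) C)).trans e2) : V ≃ₗ[F] V).toLinearMap v := by
  classical
  set e := eb b with he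
  have hn : ∀ i, n ≤ i → e i = 0 := eb_of_le b
  obtain ⟨L, hL⟩ := exists_map b (fun i => if i < t then e (i + 1) else
    if i + 1 < a then e i + e (i + 1) else if i < a then e i else (mu : F) • e i) (by
      intro i hi
      rw [if_neg (by omega), if_neg (by omega), if_neg (by omega), hn i hi, smul_zero])
  obtain ⟨T, hT⟩ := exists_map b (fun i => if i < t then (l : F) • e i else e (i + 1)) (by
      intro i hi
      rw [if_neg (by omega), hn (i + 1) (by omega)])
  rw [← he] at hL hT
  -- values
  have L1 : ∀ i, i < t → L (e i) = e (i + 1) := fun i hi => by rw [hL, if_pos hi]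
  have L2 : ∀ i, t ≤ i → i + 1 < a → L (e i) = e i + e (i + 1) := fun i hi hi' => by
    rw [hL, if_neg (by omega), if_pos hi']
  have L3 : ∀ i, i + 1 = a → L (e i) = e i := fun i hi => by
    rw [hL, if_neg (by omega), if_neg (by omega), if_pos (by omega)]
  have L4 : ∀ i, a ≤ i → L (e i) = (mu : F) • e i := fun i hi => by
    rw [hL, if_neg (by omega), if_neg (by omega), if_neg (by omega)]
  have T1 : ∀ i, i < t → T (e i) = (l : F) • e i := fun i hi => by rw [hT, if_pos hi]
  have T2 : ∀ i, t ≤ i → T (e i) = e (i + 1) := fun i hi => by rw [hT, if_neg (by omega)]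
  obtain ⟨w, hw1, hw2⟩ := exists_w L L2 L3 (a - 1 - t) t le_rfl (by omega)
  have hwS : w ∈ S (F := F) e t := by
    have := Submodule.add_mem _ (S_anti e (Nat.le_succ _) hw2) (mem_S e le_rfl)
    rwa [sub_add_cancel] at this
  -- first operator
  obtain ⟨α1, e1, -, h1⟩ := place (V := V) (E2 := E2) hD (by omega) mu (isCompl_BS b a)
    (by rw [finrank_B b han, hX1]) (by have := finrank_S b han; omega) L
    (by
      intro x hx
      have : B (F := F) e a ≤ (B e a).comap L := by
        apply B_le
        intro i hi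
        rw [Submodule.mem_comap]
        rcases lt_or_ge i t with h | h
        · rw [L1 i h]; exact mem_B e (by omega)
        · rcases Nat.lt_or_ge (i + 1) a with h' | h'
          · rw [L2 i h h']; exact Submodule.add_mem _ (mem_B e hi) (mem_B e h')
          · rw [L3 i (by omega)]; exact mem_B e hi
      exact this hx)
    (by
      intro x hx
      have : S (F := F) e a ≤ LinearMap.ker (L - (mu : F) • LinearMap.id) := by
        apply S_le
        intro i hi
        rw [LinearMap.mem_ker, LinearMap.sub_apply, L4 i hi, LinearMap.smul_apply,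
          LinearMap.id_apply, sub_self]
      have h2 := this hx
      rw [LinearMap.mem_ker, LinearMap.sub_apply, LinearMap.smul_apply, LinearMap.id_apply] at h2
      exact sub_eq_zero.1 h2)
    (e 0) (mem_B e (by omega))
    (by
      intro W hW0 hW
      apply B_le
      intro i
      induction i with
      | zero => intro _; exact hW0
      | succ i ih =>
        intro hi
        have h2 := ih (by omega)
        have h3 := hW _ h2 (mem_B e (by omega))
        rcases lt_or_ge i t with h | h
        · rwa [L1 i h] at h3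
        · rw [L2 i h hi] at h3
          have h4 := W.sub_mem h3 h2
          rwa [add_sub_cancel_left] at h4)
  -- second operator
  obtain ⟨α2, e2, hα2, h2⟩ := place (V := V) (E2 := E) hC (by omega) l (isCompl_BS b t).symm
    (by have := finrank_S b (by omega : t ≤ n); omega)
    (by rw [finrank_B b (by omega), hE]) T
    (by
      intro x hx
      have : S (F := F) e t ≤ (S e t).comap T := by
        apply S_le
        intro i hi
        rw [Submodule.mem_comap, T2 i hi]
        exact mem_S e (by omega)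
      exact this hx)
    (by
      intro x hx
      have : B (F := F) e t ≤ LinearMap.ker (T - (l : F) • LinearMap.id) := by
        apply B_le
        intro i hi
        rw [LinearMap.mem_ker, LinearMap.sub_apply, T1 i hi, LinearMap.smul_apply,
          LinearMap.id_apply, sub_self]
      have h2 := this hx
      rw [LinearMap.mem_ker, LinearMap.sub_apply, LinearMap.smul_apply, LinearMap.id_apply] at h2
      exact sub_eq_zero.1 h2)
    w hwS
    (by
      intro W hW0 hW
      refine tri hn T (fun i hi => ⟨1, one_ne_zero, ?_⟩) hW hW0 (one_ne_zero (α := F)) ?_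
      · rw [T2 i hi, one_smul, sub_self]
        exact Submodule.zero_mem _
      · rwa [one_smul])
  refine ⟨e1, e2, e 0, ?_⟩
  intro W hW0 hW
  have hDx : ∀ x, (((e1.symm.trans (bs (sc E2 mu) D)).trans e1) *
        ((e2.symm.trans (bs (sc E l) C)).trans e2) : V ≃ₗ[F] V).toLinearMap x =
        L (T x) + α2 x • e t + α1 (T x + α2 x • w) • e 0 := by
    intro x
    rw [LinearEquiv.coe_coe, LinearEquiv.mul_apply, LinearEquiv.trans_apply,
      LinearEquiv.trans_apply, LinearEquiv.trans_apply, LinearEquiv.trans_apply, h1, h2,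
      LinearEquiv.apply_symm_apply, LinearEquiv.apply_symm_apply, map_add, map_smul, hw1]
  have hst : ∀ i, i ≤ t → e i ∈ W := by
    intro i
    induction i with
    | zero => intro _; exact hW0
    | succ i ih =>
      intro hi
      have h3 := hW _ (ih (by omega))
      rw [hDx, T1 i (by omega), map_smul, L1 i (by omega), hα2 _ (mem_B e (by omega)), zero_smul,
        add_zero] at h3
      have h4 := W.sub_mem h3 (W.smul_mem (α1 ((l : F) • e i + (0 : F) • w)) hW0)
      rw [zero_smul, add_zero, add_sub_cancel_right] at h4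
      have h5 := W.smul_mem ((l⁻¹ : Fˣ) : F) h4
      rwa [smul_smul, Units.inv_mul, one_smul] at h5
  have hSW : S (F := F) e t ≤ W := by
    refine tri hn (L ∘ₗ T) (fun i hi => ?_) (fun x hx _ => ?_) (hst t le_rfl)
      (one_ne_zero (α := F)) (by rw [one_smul, sub_self]; exact Submodule.zero_mem _)
    · rw [LinearMap.comp_apply, T2 i hi]
      rcases Nat.lt_or_ge (i + 2) a with h | h
      · refine ⟨1, one_ne_zero, ?_⟩
        rw [L2 (i + 1) (by omega) h, one_smul, add_sub_cancel_left]
        exact mem_S e le_rfl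
      · rcases Nat.eq_or_lt_of_le h with h' | h'
        · refine ⟨1, one_ne_zero, ?_⟩
          rw [L3 (i + 1) h'.symm, one_smul, sub_self]
          exact Submodule.zero_mem _
        · refine ⟨mu, mu.ne_zero, ?_⟩
          rw [L4 (i + 1) (by omega), sub_self]
          exact Submodule.zero_mem _
    · have h3 := hW x hx
      rw [hDx] at h3
      have h4 := W.sub_mem h3 (W.smul_mem (α1 (T x + α2 x • w)) hW0)
      rw [add_sub_cancel_right] at h4
      have h5 := W.sub_mem h4 (W.smul_mem (α2 x) (hst t le_rfl))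
      rwa [add_sub_cancel_right] at h5
  apply B_top b
  intro i
  rcases lt_or_ge i t with h | h
  · exact hst i h.le
  · exact hSW (mem_S e h)

end Basis

theorem WP_sc {E : Type u} [AddCommGroup E] [Module F E] (l : Fˣ) (k : ℕ) :
    WP (sc E l) k (sc E (l ^ k)) := by
  induction k with
  | zero =>
    have h : sc E (l ^ 0) = 1 := by
      ext x
      rw [pow_zero]
      exact one_smul Fˣ x
    rw [h]
    exact WP.zero _
  | succ k ih =>
    have h := ih.mul (WP.one (sc E l))
    have h' : sc E (l ^ k) * sc E l = sc E (l ^ (k + 1)) := by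
      ext x
      change l ^ k • l • x = l ^ (k + 1) • x
      rw [smul_smul, pow_succ]
    rwa [h'] at h

theorem W_aux {U : Type u} [AddCommGroup U] [Module F U] [FiniteDimensional F U] (l : Fˣ)
    {C : U ≃ₗ[F] U} {f : F[X]} (hC : Cyc C f) (h2 : 2 ≤ finrank F U) (k : ℕ) (hk1 : 1 ≤ k) :
    ∀ (E : Type u) [AddCommGroup E] [Module F E] [FiniteDimensional F E],
    finrank F E + finrank F U ≤ k * (finrank F U - 1) + 1 →
    ∃ (D : (E × U) ≃ₗ[F] (E × U)) (p : F[X]), Cyc D p ∧ WP (bs (sc E l) C) k D := by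
  induction k, hk1 using Nat.le_induction with
  | base =>
    intro E _ _ _ hk
    have hE : finrank F E = 0 := by omega
    have hs : Subsingleton E := finrank_zero_iff.1 hE
    have h1 : Cyc (sc E l) (1 : F[X]) := by
      refine ⟨monic_one, by rw [natDegree_one, hE], ⟨0, fun W _ _ => ?_⟩, ?_⟩
      · rw [eq_top_iff]
        intro x _
        rw [Subsingleton.elim x 0]
        exact W.zero_mem
      · ext x
        exact Subsingleton.elim _ _
    exact ⟨_, _, h1.bs hC isCoprime_one_left, WP.one _⟩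
  | succ k hk1 ih =>
    intro E _ _ _ hk
    set d := finrank F U with hd
    obtain ⟨n, hn⟩ : ∃ n, n = finrank F E + d := ⟨_, rfl⟩
    obtain ⟨m, hm⟩ : ∃ m, m = k * (d - 1) := ⟨_, rfl⟩
    have hmd : d - 1 ≤ m := by rw [hm]; exact Nat.le_mul_of_pos_left _ hk1
    rw [Nat.succ_mul, ← hm] at hk
    rw [← hm] at ih
    obtain ⟨a, ha⟩ : ∃ a, a = min n (m + 1) := ⟨_, rfl⟩
    have han : a ≤ n := by rw [ha]; exact min_le_left _ _
    have ham : a ≤ m + 1 := by rw [ha]; exact min_le_right _ _
    have hda : d ≤ a := by rw [ha]; exact le_min (by omega) (by omega)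
    have hta : finrank F E < a := by rw [ha]; exact lt_min (by omega) (by omega)
    obtain ⟨D1, p1, hD1, hW1⟩ := ih (Fin (a - d) → F) (by
      rw [Module.finrank_fin_fun]; omega)
    have hnV : finrank F (E × U) = n := by rw [Module.finrank_prod, hn]
    obtain ⟨e1, e2, v, hv⟩ := key (E2 := Fin (n - a) → F) (E := E) hta han
      (Module.finBasisOfFinrankEq F (E × U) hnV) (l ^ k) l hD1 hC (by
        rw [Module.finrank_prod, Module.finrank_fin_fun]; omega) (by
        rw [Module.finrank_fin_fun]; omega) rfl (by omega)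
    let g : ((Fin (n - a) → F) × (Fin (a - d) → F)) ≃ₗ[F] E :=
      LinearEquiv.ofFinrankEq _ _ (by
        rw [Module.finrank_prod, Module.finrank_fin_fun, Module.finrank_fin_fun]; omega)
    let ψ : ((Fin (n - a) → F) × ((Fin (a - d) → F) × U)) ≃ₗ[F] (E × U) :=
      (LinearEquiv.prodAssoc F (Fin (n - a) → F) (Fin (a - d) → F) U).symm.trans
        (LinearEquiv.prodCongr g (LinearEquiv.refl F U))
    have hψ : ∀ z, ψ (bs (sc (Fin (n - a) → F) l) (bs (sc (Fin (a - d) → F) l) C) z) =
        bs (sc E l) C (ψ z) := by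
      rintro ⟨x2, x1, u⟩
      refine Prod.ext ?_ rfl
      change g (l • x2, l • x1) = l • g (x2, x1)
      have : ((l • x2, l • x1) : (Fin (n - a) → F) × (Fin (a - d) → F)) =
          (l : F) • (x2, x1) := rfl
      rw [this, map_smul]
      rfl
    have hM := (WP_sc (E := Fin (n - a) → F) l k).bs hW1
    have hM2 := ((WP.of_sim ψ hψ).1 hM).conj (ψ.symm.trans e1)
    have hM3 := hM2.mul ((WP.one (bs (sc E l) C)).conj e2)
    have hA1 : (ψ.symm.trans e1) * ((ψ.symm.trans (bs (sc (Fin (n - a) → F) (l ^ k)) D1)).trans ψ) *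
        (ψ.symm.trans e1)⁻¹ =
        ((e1.symm.trans (bs (sc (Fin (n - a) → F) (l ^ k)) D1)).trans e1) := by
      ext1 x
      have h1 : (ψ.symm.trans e1)⁻¹ = e1.symm.trans ψ := rfl
      rw [h1]
      simp only [LinearEquiv.mul_apply, LinearEquiv.trans_apply, LinearEquiv.symm_apply_apply]
    have hA2 : e2 * bs (sc E l) C * e2⁻¹ = ((e2.symm.trans (bs (sc E l) C)).trans e2) := rfl
    rw [hA1, hA2] at hM3
    refine ⟨_, _, ⟨LinearMap.charpoly_monic _, LinearMap.charpoly_natDegree _, ⟨v, hv⟩,
      LinearMap.aeval_self_charpoly _⟩, hM3⟩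

theorem W {E U : Type u} [AddCommGroup E] [Module F E] [FiniteDimensional F E]
    [AddCommGroup U] [Module F U] [FiniteDimensional F U] (l : Fˣ) {C : U ≃ₗ[F] U} {f : F[X]}
    (hC : Cyc C f) (h2 : 2 ≤ finrank F U) {k : ℕ} (hk1 : 1 ≤ k)
    (hk : finrank F E + finrank F U ≤ k * (finrank F U - 1) + 1) :
    ∃ (D : (E × U) ≃ₗ[F] (E × U)) (p : F[X]), Cyc D p ∧ WP (bs (sc E l) C) k D :=
  W_aux l hC h2 k hk1 E hk

end Cfsg.Agent.Lib.CovW
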