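import Mathlib
import Cfsg.Agent.Lib.CovBas3
import Cfsg.Agent.Lib.CovHG
import Cfsg.Agent.Lib.CovSTAR
import Cfsg.Agent.Lib.CovCYS
import Cfsg.Agent.Lib.CovSTR
import Cfsg.Agent.Lib.CovSPL
import Cfsg.Agent.Lib.CovQ01
import Cfsg.Agent.Lib.CovQ2
import Cfsg.Agent.Lib.CovW
import Cfsg.Agent.Lib.CovPEEL
import Cfsg.Agent.Lib.CovR1
import Cfsg.Agent.Lib.CovSC3b

set_option autoImplicit false

namespace Cfsg.Agent.Lib.CovFin

open Module Polynomial Cfsg.Agent.Lib.CyclicProd Cfsg.Agent.Lib.CovDefs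

universe u

variable {F : Type u} [Field F] {V : Type u} [AddCommGroup V] [Module F V]
  [FiniteDimensional F V]

/-- piece K for all spaces -/
def KAll (F : Type u) [Field F] : Prop :=
  ∀ (V : Type u) [AddCommGroup V] [Module F V] [FiniteDimensional F V], 3 ≤ finrank F V →
    CovCYS.KProp F V

/-- piece N3 for all spaces -/
def N3All (F : Type u) [Field F] : Prop :=
  ∀ (V : Type u) [AddCommGroup V] [Module F V] [FiniteDimensional F V], finrank F V = 3 →
    ∀ (A : V ≃ₗ[F] V) (p : F[X]), Cyc A p → LinearEquiv.det A = 1 →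
    ∃ z : Fˣ, IP A [1, 1, 1] (sc V z)

omit [FiniteDimensional F V] in
theorem sc_apply (l : Fˣ) (x : V) : sc V l x = (l : F) • x := rfl

/-! ### transport -/

theorem H.of_sim {W : Type u} [AddCommGroup W] [Module F W] [FiniteDimensional F W]
    {A : V ≃ₗ[F] V} {B : W ≃ₗ[F] W} (h : Sim A B) (hB : H B) : H A := by
  obtain ⟨e, he⟩ := h
  obtain ⟨D, p, hD, hp, hS, hS'⟩ := hB
  have hn : finrank F V = finrank F W := e.finrank_eq
  have hk : ∀ X : W ≃ₗ[F] W, ((e.symm.trans ((e.trans X).trans e.symm)).trans e) = X := by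
    intro X
    ext x
    simp
  have hsim : Sim D ((e.trans D).trans e.symm) := ⟨e.symm, fun x => by simp⟩
  refine ⟨(e.trans D).trans e.symm, p, CovSTR.Cyc.of_sim hsim hD, hp, ?_, ?_⟩
  · rw [hn, SP.of_sim e he, hk]
    exact hS
  · intro hev hdet
    rw [hn] at hev ⊢
    have h1 : ((e.trans D).trans e.symm : V ≃ₗ[F] V)⁻¹ = (e.trans D⁻¹).trans e.symm := by
      ext x
      rfl
    rw [h1, SP.of_sim e he, hk]
    apply hS' hev
    rw [← hdet]
    exact (Sim.det ⟨e, he⟩).symm

theorem G_of_cyclic (h3 : 3 ≤ finrank F V) {A E : V ≃ₗ[F] V} (hA : NS A) {p : F[X]} {k₀ : ℕ}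
    (hk₀ : k₀ ≤ finrank F V / 2) (hE : Cyc E p) (hS : SP A k₀ E) : G A := by
  have key : ∀ (j : ℕ) (M : V ≃ₗ[F] V) (q : F[X]), Cyc M q → SR q →
      LinearEquiv.det M = LinearEquiv.det A ^ (k₀ + j + 1) → SP A (k₀ + j + 1) M := by
    intro j
    induction j with
    | zero =>
      intro M q hM hq hdet
      exact CovSTAR.star (by omega) hA hE hS hM hq hdet
    | succ j ih =>
      intro M q hM hq hdet
      obtain ⟨D, r, hD, hr, hDd⟩ := CovCYS.exists_good_op (V := V) h3
        (LinearEquiv.det A ^ (k₀ + j + 1))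
      exact CovSTAR.star (by omega) hA hD (ih D r hD hr hDd) hM hq hdet
  intro k hk M q hM hq hdet
  obtain ⟨j, rfl⟩ : ∃ j, k = k₀ + j + 1 := ⟨k - k₀ - 1, by omega⟩
  exact key j M q hM hq hdet

theorem ns_of_not_slow (h1 : 0 < finrank F V) {A : V ≃ₗ[F] V} (hA : ¬ Slow A) : NS A := by
  by_contra hns
  apply hA
  have hs : CovSTR.Scal A := by
    unfold NS at hns
    push Not at hns
    choose c hc using hns
    have : Nontrivial V := Module.finrank_pos_iff.1 h1
    obtain ⟨x₀, hx₀⟩ := exists_ne (0 : V)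
    refine ⟨c x₀, fun y => ?_⟩
    by_cases hy : ∃ a : F, y = a • x₀
    · obtain ⟨a, rfl⟩ := hy
      rw [map_smul, hc, smul_comm]
    · -- independent
      have hli : LinearIndependent F ![x₀, y] := by
        rw [LinearIndependent.pair_iff' hx₀]
        intro a ha
        exact hy ⟨a, ha.symm⟩
      have h2 := hc (x₀ + y)
      rw [map_add, hc, hc y, smul_add] at h2
      have h3 : (c x₀ - c (x₀ + y)) • x₀ + (c y - c (x₀ + y)) • y = 0 := by
        rw [sub_smul, sub_smul]
        rw [← sub_eq_zero] at h2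
        rw [← h2]; abel
      have h4 := LinearIndependent.pair_iff.1 hli _ _ h3
      rw [hc y]
      congr 1
      rw [sub_eq_zero.1 h4.1, sub_eq_zero.1 h4.2]
  obtain ⟨l, rfl⟩ := CovSTR.Scal.eq_sc hs h1
  refine ⟨l, ?_⟩
  have : (sc V l).toLinearMap - (l : F) • LinearMap.id = 0 := by
    ext x
    change sc V l x - (l : F) • x = 0
    rw [sc_apply, sub_self]
  rw [this, LinearMap.range_zero, finrank_bot]
  omega

/-- trichotomy with growth -/
theorem cases [Fintype F] (h4 : 4 ≤ Fintype.card F)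
    (IH : ∀ (W : Type u) [AddCommGroup W] [Module F W] [FiniteDimensional F W] (A : W ≃ₗ[F] W),
      3 ≤ finrank F W → finrank F W < finrank F V → ¬ Slow A → G A)
    (h3 : 3 ≤ finrank F V) (A : V ≃ₗ[F] V) (hA : ¬ Slow A) :
    (∃ p, Cyc A p) ∨
    (∃ (E U : Submodule F V) (l : Fˣ) (C : U ≃ₗ[F] U) (f : F[X]), Sim A (bs (sc E l) C) ∧
      1 ≤ finrank F E ∧ 3 ≤ finrank F U ∧ Cyc C f ∧ f.eval (l : F) = 0) ∨ H A := by
  rcases CovSTR.STR h3 A hA with h | h | h | h
  · exact Or.inl h
  · exact Or.inr (Or.inl h)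
  · obtain ⟨E, U, U', l, C, C', f, hs, hU, hU', hC, hC', hf⟩ := h
    refine Or.inr (Or.inr (H.of_sim hs ?_))
    rcases Nat.lt_or_ge (finrank F E) 2 with hE | hE
    · exact CovQ01.Q01 h4 l hU hU' hC hC' (by omega) hf
    · exact CovQ2.Q2_ofW (fun _ _ _ _ _ _ _ _ l _ _ hC h2 _ hk1 hk => CovW.W l hC h2 hk1 hk) h4 l hU hU'
        hC hC' hE
  · obtain ⟨U, W, C, A₂, f, hs, hU, hW, hC, hA₂⟩ := h
    refine Or.inr (Or.inr (H.of_sim hs ?_))
    refine CovSPL.SPL h4 hU hC hW (IH W A₂ hW ?_ hA₂)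
    obtain ⟨e, _⟩ := hs
    have := e.finrank_eq
    rw [Module.finrank_prod] at this
    omega

theorem G.of_sim {W : Type u} [AddCommGroup W] [Module F W] [FiniteDimensional F W]
    {A : V ≃ₗ[F] V} {B : W ≃ₗ[F] W} (h : Sim A B) (hB : G B) : G A := by
  obtain ⟨e, he⟩ := h
  intro k hk M q hM hq hdet
  rw [e.finrank_eq] at hk
  rw [SP.of_sim e he]
  have hsim : Sim M ((e.symm.trans M).trans e) := ⟨e, fun x => by simp⟩
  refine hB k hk _ q (CovSTR.Cyc.of_sim hsim hM) hq ?_
  rw [← Sim.det hsim, hdet, Sim.det ⟨e, he⟩]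

theorem window_G {E U : Type u} [AddCommGroup E] [Module F E] [FiniteDimensional F E]
    [AddCommGroup U] [Module F U] [FiniteDimensional F U] (l : Fˣ) {C : U ≃ₗ[F] U} {f : F[X]}
    (hC : Cyc C f) (hE : 1 ≤ finrank F E) (hU : 3 ≤ finrank F U) : G (bs (sc E l) C) := by
  have hn : finrank F (E × U) = finrank F E + finrank F U := Module.finrank_prod
  obtain ⟨D, p, hD, hW⟩ := CovW.W (E := E) l hC (by omega)
    (k := (finrank F E + finrank F U) / 2) (by omega) (by
      have h1 : 2 * ((finrank F E + finrank F U) / 2) ≤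
          ((finrank F E + finrank F U) / 2) * (finrank F U - 1) := by
        rw [mul_comm]
        exact Nat.mul_le_mul_left _ (by omega)
      omega)
  have hns : NS (bs (sc E l) C) := by
    obtain ⟨u, hu⟩ := hC.ns (by omega)
    exact ⟨(0, u), fun c hc => hu c (congrArg Prod.snd hc)⟩
  exact G_of_cyclic (by omega) hns (k₀ := (finrank F E + finrank F U) / 2) (by rw [hn]) hD
    (hW.sp_of_full (Full.bs_sc hE l C))

/-- growth -/
theorem growth [Fintype F] (h4 : 4 ≤ Fintype.card F) (hK : KAll F) : ∀ (n : ℕ) (V : Type u) [AddCommGroup V]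
    [Module F V] [FiniteDimensional F V] (A : V ≃ₗ[F] V), finrank F V = n → 3 ≤ n → ¬ Slow A →
    G A := by
  intro n
  induction n using Nat.strong_induction_on with
  | _ n ih =>
    intro V _ _ _ A hn h3 hA
    subst hn
    have IH : ∀ (W : Type u) [AddCommGroup W] [Module F W] [FiniteDimensional F W]
        (A : W ≃ₗ[F] W), 3 ≤ finrank F W → finrank F W < finrank F V → ¬ Slow A → G A := by
      intro W _ _ _ A h h' hA'
      exact ih _ h' W A rfl h hA'
    rcases cases h4 IH h3 A hA with ⟨p, hp⟩ | ⟨E, U, l, C, f, hs, hE, hU, hC, hf⟩ | hH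
    · intro k hk M q hM hq hdet
      exact CovCYS.cycS_of (hK V h3) h3 (by omega) hp hM hq hdet
    · exact G.of_sim hs (window_G l hC hE hU)
    · obtain ⟨D, p, hD, hp, hS, -⟩ := hH
      exact G_of_cyclic h3 (ns_of_not_slow (by omega) hA) le_rfl hD hS

theorem IP_of_SP_inv {A : V ≃ₗ[F] V} {k : ℕ} (h : SP A k A⁻¹) :
    IP A (List.replicate (k + 1) 1) 1 := by
  rw [List.replicate_succ]
  exact ⟨1, A⁻¹, map_one _, h _ (by simp), by simp⟩

theorem sc_one : sc V (1 : Fˣ) = 1 := by
  ext x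
  rw [sc_apply, Units.val_one, one_smul]; rfl

/-- final statement for operators -/
theorem final [Fintype F] (h4 : 4 ≤ Fintype.card F) (hK : KAll F) (hN3 : N3All F) (h3 : 3 ≤ finrank F V) {A : V ≃ₗ[F] V}
    (hA : NS A) (hd : LinearEquiv.det A = 1) :
    (∀ M : V ≃ₗ[F] V, NS M → LinearEquiv.det M = 1 → IP A (List.replicate (finrank F V) 1) M) ∧
    ∃ z : Fˣ, IP A (List.replicate (finrank F V) 1) (sc V z) := by
  by_cases hs : Slow A
  · exact CovR1.R1 h4 h3 hA hs hd
  have hAinv : NS A⁻¹ := CovSTAR.ns_inv hA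
  have hdinv : LinearEquiv.det A⁻¹ = 1 := by rw [map_inv, hd, inv_one]
  obtain ⟨m, hm⟩ : ∃ m, finrank F V = m + 1 := ⟨finrank F V - 1, by omega⟩
  rcases cases h4 (fun W _ _ _ A h _ hA' => growth h4 hK _ W A rfl h hA') h3 A hs with
    ⟨p, hp⟩ | ⟨E, U, l, C, f, hsim, hE, hU, hC, hf⟩ | hH
  · refine ⟨fun M hM hMd => ?_, ?_⟩
    · exact CovCYS.cycS3_of (hK V h3) h3 h3 hp hM (by rw [hMd, hd, one_pow]) _ (by simp)
    · rcases Nat.lt_or_ge (finrank F V) 4 with h | h
      · have h33 : finrank F V = 3 := by omega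
        obtain ⟨z, hz⟩ := hN3 V h33 A p hp hd
        exact ⟨z, by rw [h33]; exact hz⟩
      · refine ⟨1, ?_⟩
        rw [sc_one, hm]
        exact IP_of_SP_inv (CovCYS.cycS3_of (hK V h3) h3 (by omega) hp hAinv
          (by rw [hdinv, hd, one_pow]))
  · obtain ⟨e, he⟩ := hsim
    have hn : finrank F V = finrank F E + finrank F U := by
      rw [e.finrank_eq, Module.finrank_prod]
    have hfull : Full A := Full.of_sim (Sim.symm ⟨e, he⟩) (Full.bs_sc hE l C)
    have peel : ∀ (N : ℕ), finrank F E + 3 ≤ N → ∀ M : V ≃ₗ[F] V, NS M →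
        LinearEquiv.det M = 1 → SP A N M := by
      intro N hN M hM hMd
      apply WP.sp_of_full hfull
      rw [WP.of_sim e he]
      have hsM : Sim M ((e.symm.trans M).trans e) := ⟨e, fun x => by simp⟩
      apply CovPEEL.PEEL h4 l hC hU hN (NS.of_sim hsM hM)
      rw [← Sim.det hsM, hMd, ← Sim.det ⟨e, he⟩, hd, one_pow]
    refine ⟨fun M hM hMd => peel (finrank F V) (by omega) M hM hMd _ (by simp), ?_⟩
    rcases Nat.lt_or_ge (finrank F U) 4 with h | h
    · have hU3 : finrank F U = 3 := by omega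
      obtain ⟨z, hz⟩ := CovSC3.SC3_of h4 (fun l _ _ hC h3 _ hN _ hM hdet => CovPEEL.PEEL h4 l hC h3 hN hM hdet) l hC hU3 hE hf (by rw [← Sim.det ⟨e, he⟩, hd])
      refine ⟨z, ?_⟩
      have h1 : WP A (finrank F E + 3) (sc V z) := by
        rw [WP.of_sim e he]
        have : (e.symm.trans (sc V z)).trans e = sc (E × U) z := by
          apply LinearEquiv.ext
          intro x
          change e (sc V z (e.symm x)) = _
          rw [sc_apply, sc_apply, map_smul, LinearEquiv.apply_symm_apply]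
        rw [this]
        exact hz
      exact h1.sp_of_full hfull _ (by simp; omega)
    · refine ⟨1, ?_⟩
      rw [sc_one, hm]
      exact IP_of_SP_inv (peel m (by omega) _ hAinv hdinv)
  · obtain ⟨D, p, hD, hp, hS, hS'⟩ := hH
    set k := finrank F V / 2 with hk
    have hG : G A := growth h4 hK _ V A rfl h3 hs
    rcases Nat.even_or_odd (finrank F V) with hev | hodd
    · have hkk : finrank F V = k + k := by
        obtain ⟨r, hr⟩ := hev
        omega
      have hSi := hS' hev hd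
      refine ⟨fun M hM hMd => ?_, 1, ?_⟩
      · have := CovSTAR.star2 (by omega) hD hp hS hD hS hM (by rw [hMd, hd, one_pow])
        rw [← hkk] at this
        exact this _ (by simp)
      · have := SP.mul hS hSi
        rw [mul_inv_cancel, ← hkk] at this
        rw [sc_one]
        exact this _ (by simp)
    · have hkk : finrank F V = k + k + 1 := by
        obtain ⟨r, hr⟩ := hodd
        omega
      refine ⟨fun M hM hMd => ?_, 1, ?_⟩
      · obtain ⟨E, r, hE, hr, hEd⟩ := CovCYS.exists_good_op (V := V) h3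
          (LinearEquiv.det A ^ (k + 1))
        have hES := hG (k + 1) (by omega) E r hE hr hEd
        have := CovSTAR.star2 (by omega) hD hp hS hE hES hM (by rw [hMd, hd, one_pow])
        rw [← add_assoc, ← hkk] at this
        exact this _ (by simp)
      · have := CovSTAR.star2 (by omega) hD hp hS hD hS hAinv (by rw [hdinv, hd, one_pow])
        rw [sc_one, hkk]
        exact IP_of_SP_inv this

end Cfsg.Agent.Lib.CovFin
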