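import Cfsg.Agent.Lib.CovKd0
import Cfsg.Agent.Lib.CovDefs

/-! S2483, piece K (helper22). -/

set_option autoImplicit false

namespace Cfsg.Agent.Lib.CovK

open Module Polynomial Cfsg.Agent.Lib.CyclicProd

universe u v

section Main

variable {F : Type u} [Field F] {V : Type v} [AddCommGroup V] [Module F V] [FiniteDimensional F V]

/-- **Main theorem** (operator form) with a prescribed Krylov volume. -/
theorem main2 {m : ℕ} (hV : finrank F V = m + 2 + 1) (A : V ≃ₗ[F] V) {u : V}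
    (hu : ∀ c : F, A u ≠ c • u) {p' : F[X]} (hp'm : p'.Monic) (hp'd : p'.natDegree = m + 2)
    (hp'0 : p'.coeff 0 ≠ 0) {c : F} (hc0 : c ≠ 0) (hc : p'.eval c ≠ 0) {q : F[X]} (hqm : q.Monic)
    (hqd : q.natDegree = m + 2 + 1)
    (hdet : (-1) ^ (m + 2 + 1) * q.coeff 0 =
      LinearMap.det A.toLinearMap * ((-1) ^ (m + 2) * p'.coeff 0 * c))
    {ω : V [⋀^Fin (m + 2 + 1)]→ₗ[F] F} (hω : ω ≠ 0) {γ : F} (hγ : γ ≠ 0) :
    ∃ Y : V →ₗ[F] V, (∃ v, CycVec Y v) ∧ aeval Y (p' * (X - C c)) = 0 ∧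
      CycVec (Y ∘ₗ A.toLinearMap) u ∧ aeval (Y ∘ₗ A.toLinearMap) q = 0 ∧
      ω (fun i => ((Y ∘ₗ A.toLinearMap) ^ (i : ℕ)) u) = γ := by
  have hu0 : u ≠ 0 := by rintro rfl; exact hu 0 (by simp)
  obtain ⟨φ₀, h1, h2⟩ := exists_dual_ne_ne (F := F) hu0 ((A.symm.map_ne_zero_iff).2 hu0)
  obtain ⟨φ, hφu, hφA⟩ : ∃ φ : V →ₗ[F] F, φ u = 1 ∧ φ (A.symm u) ≠ 0 :=
    ⟨(φ₀ u)⁻¹ • φ₀, by simp [h1], by simpa [h1] using h2⟩
  have hφ0 : φ ≠ 0 := by rintro rfl; simp at hφu
  set D := LinearMap.ker φ with hD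
  have hDfin : finrank F D = m + 2 := finrank_ker_dual hφ0 hV
  let π : V →ₗ[F] D := LinearMap.codRestrict D (LinearMap.id - φ.smulRight u) (by
    intro v; simp [hD, hφu])
  have hπ : ∀ v, ((π v : D) : V) = v - φ v • u := fun v => rfl
  have hπD : ∀ h : D, π h = h := by
    intro h
    apply Subtype.ext
    rw [hπ, LinearMap.mem_ker.1 h.2, zero_smul, sub_zero]
  have hπu : π u = 0 := by
    apply Subtype.ext
    rw [hπ, hφu, one_smul, sub_self]; rfl
  have hdec : ∀ v, v = (π v : V) + φ v • u := fun v => by rw [hπ]; abel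
  let T' : D →ₗ[F] D := π ∘ₗ A.toLinearMap ∘ₗ D.subtype
  have hT' : ∀ h : D, T' h = π (A h) := fun h => rfl
  have hinj : Function.Injective T' := by
    rw [← LinearMap.ker_eq_bot, eq_bot_iff]
    intro h hh
    rw [LinearMap.mem_ker, hT'] at hh
    have e1 : A (h : V) = φ (A h) • u := by
      have := congrArg (Subtype.val) hh
      rw [hπ] at this
      exact sub_eq_zero.1 this
    have e2 : (h : V) = φ (A h) • A.symm u := by
      rw [← map_smul, ← e1, LinearEquiv.symm_apply_apply]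
    have e3 : φ (A h) * φ (A.symm u) = 0 := by
      rw [← smul_eq_mul, ← map_smul, ← e2]; exact h.2
    have e4 : φ (A h) = 0 := by
      rcases mul_eq_zero.1 e3 with h | h
      · exact h
      · exact absurd h hφA
    rw [Submodule.mem_bot]
    apply Subtype.ext
    rw [e2, e4, zero_smul]; rfl
  let T : D ≃ₗ[F] D := LinearEquiv.ofInjectiveEndo T' hinj
  have hT : ∀ h : D, T h = π (A h) := fun h => rfl
  set d : D := π (A u) with hd
  have hd0 : d ≠ 0 := by
    intro h0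
    have := congrArg (Subtype.val) h0
    rw [hd, hπ] at this
    exact hu _ (sub_eq_zero.1 this)
  have hκ0 : (-1) ^ (m + 2) * p'.coeff 0 ≠ 0 := mul_ne_zero (pow_ne_zero _ (neg_ne_zero.2 one_ne_zero)) hp'0
  obtain ⟨θ, S₀, _, ha, hb, _, _, _, hvol⟩ := prep2 m D hDfin T d hd0 _ (ind_ne_zero hω hφu hDfin)
    (((-1) ^ (m + 2) * p'.coeff 0)⁻¹ * γ) (mul_ne_zero (inv_ne_zero hκ0) hγ)
  obtain ⟨w, v₀, hS, hSp⟩ := pole ha (by rw [hDfin]; omega) hp'm (by rw [hp'd, hDfin])
  set S := S₀ + θ.smulRight w with hSdef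
  have hTS := hb w
  rw [← hSdef] at hTS
  have hSinj : Function.Injective S := by
    rw [← LinearMap.ker_eq_bot, eq_bot_iff]
    intro x hx
    rw [LinearMap.mem_ker] at hx
    have h3 : (aeval S p') x = p'.coeff 0 • x := by
      rw [Polynomial.aeval_eq_sum_range, LinearMap.sum_apply, Finset.sum_eq_single 0]
      · simp
      · intro k _ hk
        obtain ⟨k', rfl⟩ := Nat.exists_eq_succ_of_ne_zero hk
        rw [LinearMap.smul_apply, pow_succ, Module.End.mul_apply, hx, map_zero, smul_zero]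
      · intro h; simp at h
    rw [hSp, LinearMap.zero_apply] at h3
    rw [Submodule.mem_bot]
    exact (smul_eq_zero.1 h3.symm).resolve_left hp'0
  have hSsurj : Function.Surjective S := LinearMap.injective_iff_surjective.1 hSinj
  -- the family Y_τ
  let Yt : (V →ₗ[F] F) → (V →ₗ[F] V) := fun τ => D.subtype ∘ₗ S ∘ₗ π + τ.smulRight u
  have hYt : ∀ τ v, Yt τ v = (S (π v) : V) + τ v • u := fun τ v => rfl
  have hYu : ∀ τ, Yt τ u = τ u • u := fun τ => by rw [hYt, hπu, map_zero]; simp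
  have hπY : ∀ τ v, π (Yt τ v) = S (π v) := by
    intro τ v
    rw [hYt, map_add, map_smul, hπu, smul_zero, add_zero, hπD]
  have hπY' : ∀ τ (g : F[X]) v, π ((aeval (Yt τ) g) v) = (aeval S g) (π v) := by
    intro τ g v
    have hk : ∀ k : ℕ, π ((Yt τ ^ k) v) = (S ^ k) (π v) := by
      intro k
      induction k with
      | zero => simp
      | succ k ih => rw [pow_succ', Module.End.mul_apply, hπY, ih, pow_succ', Module.End.mul_apply]
    rw [Polynomial.aeval_eq_sum_range, Polynomial.aeval_eq_sum_range, LinearMap.sum_apply,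
      LinearMap.sum_apply, map_sum]
    exact Finset.sum_congr rfl fun k _ => by
      rw [LinearMap.smul_apply, LinearMap.smul_apply, map_smul, hk]
  have hYg : ∀ τ (g : F[X]), (aeval (Yt τ) g) u = g.eval (τ u) • u := by
    intro τ g
    have hk : ∀ k : ℕ, (Yt τ ^ k) u = (τ u) ^ k • u := by
      intro k
      induction k with
      | zero => simp
      | succ k ih =>
        rw [pow_succ', Module.End.mul_apply, ih, map_smul, hYu, smul_smul, pow_succ]
    rw [Polynomial.aeval_eq_sum_range, LinearMap.sum_apply, Polynomial.eval_eq_sum_range,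
      Finset.sum_smul]
    exact Finset.sum_congr rfl fun k _ => by
      rw [LinearMap.smul_apply, hk, smul_smul]
  -- Lemma 1
  have L1 : ∀ τ : V →ₗ[F] F, τ u = c →
      (∃ v, CycVec (Yt τ) v) ∧ aeval (Yt τ) (p' * (X - C c)) = 0 := by
    intro τ hτ
    have hκ : ∀ v, (aeval (Yt τ) p') v = φ ((aeval (Yt τ) p') v) • u := by
      intro v
      have h3 := hdec ((aeval (Yt τ) p') v)
      rw [hπY', hSp] at h3
      simpa using h3
    constructor
    · set κ := φ ((aeval (Yt τ) p') (v₀ : V)) with hκdef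
      refine ⟨(v₀ : V) + ((1 - κ) / p'.eval c) • u, ?_⟩
      intro W hv hW
      have h3 : (aeval (Yt τ) p') ((v₀ : V) + ((1 - κ) / p'.eval c) • u) = u := by
        rw [map_add, map_smul, hYg, hτ, hκ, ← hκdef, smul_smul, div_mul_cancel₀ _ hc, ← add_smul,
          add_sub_cancel, one_smul]
      have huW : u ∈ W := by
        rw [← h3]
        exact CycVec.aeval_mem hW hv p'
      have hvW : (v₀ : V) ∈ W := by
        have := W.sub_mem hv (W.smul_mem ((1 - κ) / p'.eval c) huW)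
        simpa using this
      have hW₁ : W.comap D.subtype = ⊤ := by
        apply hS
        · exact hvW
        · intro x hx
          have h4 := hW _ hx
          rw [hYt] at h4
          have h5 := W.sub_mem h4 (W.smul_mem (τ (D.subtype x)) huW)
          rw [add_sub_cancel_right, Submodule.coe_subtype, hπD] at h5
          exact h5
      rw [eq_top_iff]
      intro w' _
      have h5 : (π w' : D) ∈ W.comap D.subtype := by rw [hW₁]; trivial
      rw [hdec w']
      exact W.add_mem h5 (W.smul_mem _ huW)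
    · ext v
      rw [mul_comm, map_mul, Module.End.mul_apply, hκ, map_smul, hYg, hτ]
      simp
  -- the operator Z
  let Y₀ := Yt (c • φ)
  let Z : V →ₗ[F] V := Y₀ ∘ₗ A.toLinearMap
  have hZ : ∀ v, Z v = (S (π (A v)) : V) + (c * φ (A v)) • u := fun v => rfl
  have hZcyc : CycVec Z u := by
    intro W huW hW
    have hSW : ∀ v ∈ W, (S (π (A v)) : V) ∈ W := by
      intro v hv
      have h4 := W.sub_mem (hW v hv) (W.smul_mem (c * φ (A v)) huW)
      rw [hZ, add_sub_cancel_right] at h4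
      exact h4
    have hW' : (W.comap D.subtype).comap S = ⊤ := by
      apply hTS
      · exact hSW u huW
      · intro x hx
        have h4 := hSW (S x : V) hx
        exact h4
    rw [eq_top_iff]
    intro v _
    obtain ⟨y, hy⟩ := hSsurj (π v)
    have h5 : y ∈ (W.comap D.subtype).comap S := by rw [hW']; trivial
    have h6 : ((S y : D) : V) ∈ W := h5
    rw [hy] at h6
    rw [hdec v]
    exact W.add_mem h6 (W.smul_mem _ huW)
  obtain ⟨ζ, hζ1, hζ2⟩ := pole' hZcyc (by rw [hV]; omega) hqm (by rw [hqd, hV])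
  let τ : V →ₗ[F] F := c • φ + ζ ∘ₗ A.symm.toLinearMap
  have hYA : Yt τ ∘ₗ A.toLinearMap = Z + ζ.smulRight u := by
    ext v
    simp only [LinearMap.comp_apply, LinearMap.add_apply, hYt, LinearEquiv.coe_coe, hZ, τ,
      LinearMap.smulRight_apply, LinearEquiv.symm_apply_apply, LinearMap.smul_apply, smul_eq_mul,
      add_smul, add_assoc]
  -- determinants
  have hYdet : ∀ σ : V →ₗ[F] F, LinearMap.det (Yt σ) = LinearMap.det (Yt φ) * σ u := by
    intro σ
    have h3 : Yt σ = Yt φ ∘ₗ LinearMap.transvection (σ - φ) u := by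
      ext v
      have e1 : π (v + (σ - φ) v • u) = π v := by
        rw [map_add, map_smul, hπu, smul_zero, add_zero]
      have e2 : φ (v + (σ - φ) v • u) = σ v := by
        rw [map_add, map_smul, hφu, LinearMap.sub_apply]; simp
      rw [LinearMap.comp_apply, LinearMap.transvection.apply, hYt, hYt, e1, e2]
    rw [h3, LinearMap.det_comp, LinearMap.transvection.det, LinearMap.sub_apply, hφu]
    ring
  have hκ : LinearMap.det (Yt φ) = (-1) ^ (m + 2) * p'.coeff 0 := by
    obtain ⟨⟨v, hv⟩, h4⟩ := L1 (c • φ) (by simp [hφu])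
    have h5 := hv.det_eq (hp'm.mul (monic_X_sub_C c))
      (by rw [hp'm.natDegree_mul (monic_X_sub_C c), hp'd, natDegree_X_sub_C, hV]) h4
    rw [hYdet, hV, Polynomial.mul_coeff_zero] at h5
    simp only [LinearMap.smul_apply, hφu, smul_eq_mul, mul_one, Polynomial.coeff_sub,
      Polynomial.coeff_X_zero, Polynomial.coeff_C_zero] at h5
    have h6 : LinearMap.det (Yt φ) * c = ((-1) ^ (m + 2) * p'.coeff 0) * c := by
      rw [h5]; ring
    exact mul_right_cancel₀ hc0 h6
  have hτu : τ u = c := by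
    have h4 := hζ1.det_eq hqm (by rw [hqd, hV]) hζ2
    rw [← hYA, LinearMap.det_comp, hYdet, hV, hdet, hκ] at h4
    have hA : LinearMap.det A.toLinearMap ≠ 0 := (LinearEquiv.isUnit_det' A).ne_zero
    have hne : LinearMap.det A.toLinearMap * ((-1) ^ (m + 2) * p'.coeff 0) ≠ 0 :=
      mul_ne_zero hA (mul_ne_zero (pow_ne_zero _ (neg_ne_zero.2 one_ne_zero)) hp'0)
    apply mul_left_cancel₀ hne
    rw [mul_assoc]
    linear_combination h4
  obtain ⟨h5, h6⟩ := L1 τ hτu
  refine ⟨Yt τ, h5, h6, by rw [hYA]; exact hζ1, by rw [hYA]; exact hζ2, ?_⟩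
  -- the Krylov volume
  obtain ⟨b₁, hb₁⟩ := exists_kb hTS hDfin
  let Se : D ≃ₗ[F] D := LinearEquiv.ofBijective S ⟨hSinj, hSsurj⟩
  have hSe : ∀ x, Se x = S x := fun x => rfl
  let b₂ : Basis (Fin (m + 1 + 1)) F D := b₁.map Se
  have hb₂ : ∀ i, b₂ i = S (b₁ i) := fun i => by rw [Basis.map_apply, hSe]
  rw [hYA]
  have e0 : cb hφu b₂ 0 = u := by rw [cb_coe]; rfl
  have e1 : ∀ (j : ℕ) (hj : j + 1 < m + 2 + 1), cb hφu b₂ ⟨j + 1, hj⟩ = (S (((T.toLinearMap ∘ₗ S) ^ j) d) : D) := by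
    intro j hj
    rw [cb_coe]
    have : (⟨j + 1, hj⟩ : Fin (m + 2 + 1)) = Fin.succ ⟨j, by omega⟩ := rfl
    rw [this, Fin.cons_succ, hb₂, hb₁]
  have h7 := krylov_alt (cb hφu b₂) (Z + ζ.smulRight u) (by
    intro i hi
    rw [e0, e1 i hi]
    rcases i with _ | i
    · have : (⟨0, by omega⟩ : Fin (m + 2 + 1)) = 0 := rfl
      rw [this, e0, LinearMap.add_apply, LinearMap.smulRight_apply, hZ, pow_zero, Module.End.one_apply, ← hd]
      exact ⟨c * φ (A u) + ζ u, by rw [add_smul, add_assoc]⟩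
    · rw [e1 i (by omega), LinearMap.add_apply, LinearMap.smulRight_apply, hZ, pow_succ', Module.End.mul_apply,
        LinearMap.comp_apply, LinearEquiv.coe_coe, hT]
      exact ⟨_, by rw [add_assoc, ← add_smul]⟩) ω
  rw [e0] at h7
  rw [h7, cb_coe]
  have h8 := hvol w
  rw [← hSdef] at h8
  have h9 : LinearMap.det S = (-1) ^ (m + 2) * p'.coeff 0 := by
    rw [hS.det_eq hp'm (by rw [hp'd, hDfin]) hSp, hDfin]
  have h10 := AlternatingMap.eq_smul_basis_det b₁ (ind ω u D)
  have h11 : ind ω u D (fun j => b₂ j) = LinearMap.det S * ind ω u D (fun j => b₁ j) := by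
    have e2 : (fun j => b₂ j) = S ∘ b₁ := funext hb₂
    rw [e2, h10, AlternatingMap.smul_apply, AlternatingMap.smul_apply, Basis.det_comp]
    simp only [smul_eq_mul]
    ring
  have h12 : (fun j => b₁ j) = fun i : Fin (m + 2) => ((T.toLinearMap ∘ₗ S) ^ (i : ℕ)) d := funext hb₁
  rw [h12, h8, h9, mul_inv_cancel_left₀ hκ0] at h11
  exact h11

theorem sim_vec {V₂ : Type v} [AddCommGroup V₂] [Module F V₂] [FiniteDimensional F V₂]
    {T₁ : V →ₗ[F] V} {T₂ : V₂ →ₗ[F] V₂} {v₁ : V} {v₂ : V₂} (h₁ : CycVec T₁ v₁) (h₂ : CycVec T₂ v₂)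
    {q : F[X]} (hm : q.Monic) (hd₁ : q.natDegree = finrank F V) (hd₂ : q.natDegree = finrank F V₂)
    (h0₁ : aeval T₁ q = 0) (h0₂ : aeval T₂ q = 0) :
    ∃ P : V ≃ₗ[F] V₂, (∀ x, P (T₁ x) = T₂ (P x)) ∧ P v₁ = v₂ := by
  have hli₁ := (cycVec_iff_linearIndependent T₁ v₁ q.natDegree hd₁.symm).1 h₁
  have hli₂ := (cycVec_iff_linearIndependent T₂ v₂ q.natDegree hd₂.symm).1 h₂
  rcases Nat.eq_zero_or_pos q.natDegree with hz | hz
  · have e1 : Subsingleton V := finrank_zero_iff.1 (hd₁.symm.trans hz)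
    have e2 : Subsingleton V₂ := finrank_zero_iff.1 (hd₂.symm.trans hz)
    exact ⟨LinearEquiv.ofFinrankEq V V₂ (hd₁.symm.trans hd₂), fun x => Subsingleton.elim _ _, Subsingleton.elim _ _⟩
  have : Nonempty (Fin q.natDegree) := ⟨⟨0, hz⟩⟩
  let b₁ := basisOfLinearIndependentOfCardEqFinrank hli₁ (by simp [hd₁])
  let b₂ := basisOfLinearIndependentOfCardEqFinrank hli₂ (by simp [hd₂])
  have hb₁ : ∀ i, b₁ i = (T₁ ^ (i : ℕ)) v₁ := fun i => by
    simp [b₁]
  have hb₂ : ∀ i, b₂ i = (T₂ ^ (i : ℕ)) v₂ := fun i => by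
    simp [b₂]
  let P : V ≃ₗ[F] V₂ := b₁.equiv b₂ (Equiv.refl _)
  have hP : ∀ i, P (b₁ i) = b₂ i := fun i => by simp [P]
  refine ⟨P, fun x => ?_, by
    have h1 := hP ⟨0, hz⟩
    rw [hb₁, hb₂] at h1
    simpa using h1⟩
  have : P.toLinearMap ∘ₗ T₁ = T₂ ∘ₗ P.toLinearMap := by
    refine b₁.ext fun i => ?_
    simp only [LinearMap.coe_comp, Function.comp_apply, LinearEquiv.coe_coe]
    rw [hP, hb₂, hb₁, ← Module.End.mul_apply, ← Module.End.mul_apply, ← pow_succ', ← pow_succ']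
    by_cases hi : (i : ℕ) + 1 < q.natDegree
    · have e1 := hb₁ ⟨i + 1, hi⟩
      have e2 := hb₂ ⟨i + 1, hi⟩
      simp only at e1 e2
      rw [← e1, ← e2, hP]
    · have hi' : (i : ℕ) + 1 = q.natDegree := by omega
      rw [hi']
      have g1 : ∀ {U : Type v} [AddCommGroup U] [Module F U] (T : U →ₗ[F] U) (v : U),
          aeval T q = 0 → (T ^ q.natDegree) v =
            - ∑ j : Fin q.natDegree, q.coeff j • (T ^ (j : ℕ)) v := by
        intro U _ _ T v hT
        have h2 : (aeval T q) v = 0 := by rw [hT]; rfl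
        rw [Polynomial.aeval_eq_sum_range, Finset.sum_range_succ, hm.coeff_natDegree, one_smul,
          LinearMap.add_apply] at h2
        rw [eq_neg_of_add_eq_zero_right h2, LinearMap.sum_apply,
          ← Fin.sum_univ_eq_sum_range (fun i => (q.coeff i • T ^ i) v)]
        rfl
      rw [g1 T₁ v₁ h0₁, g1 T₂ v₂ h0₂, map_neg, map_sum]
      congr 1
      refine Finset.sum_congr rfl fun j _ => ?_
      rw [map_smul, ← hb₁, hP, hb₂]
  exact congrArg (fun f => f x) this


end Main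

section K

open Cfsg.Agent.Lib.CovDefs

variable {F : Type u} [Field F] {V : Type u} [AddCommGroup V] [Module F V] [FiniteDimensional F V]

/-- `CyclicProd.main` with determinant control, dimension at least 3. -/
theorem K (h3 : 3 ≤ finrank F V) {B Y₀ Z₀ : V ≃ₗ[F] V} (hB : NS B) {p q : F[X]}
    (hY : Cyc Y₀ p) (hp : SR p) (hZ : Cyc Z₀ q)
    (hdet : LinearEquiv.det Z₀ = LinearEquiv.det B * LinearEquiv.det Y₀) (γ : Fˣ) :
    ∃ g h : V ≃ₗ[F] V, LinearEquiv.det h = γ ∧ (g * Y₀ * g⁻¹) * B = h * Z₀ * h⁻¹ := by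
  obtain ⟨m, hm⟩ : ∃ m, finrank F V = m + 2 + 1 := ⟨finrank F V - 3, by omega⟩
  obtain ⟨u, hu⟩ := hB
  obtain ⟨hpm, hpd, ⟨y, hy⟩, hp0⟩ := hY
  obtain ⟨hqm, hqd, ⟨v, hv⟩, hq0⟩ := hZ
  obtain ⟨c, p', rfl, hc⟩ := hp
  have hp'm : p'.Monic := by
    have h1 := hpm
    unfold Polynomial.Monic at h1 ⊢
    rw [Polynomial.leadingCoeff_mul, (monic_X_sub_C c).leadingCoeff, mul_one] at h1
    exact h1
  have hp'd : p'.natDegree = m + 2 := by
    rw [hp'm.natDegree_mul (monic_X_sub_C c), natDegree_X_sub_C, hm] at hpd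
    omega
  have d1 := hy.det_eq hpm hpd hp0
  have d2 := hv.det_eq hqm hqd hq0
  rw [hm] at d1 d2
  rw [Polynomial.mul_coeff_zero] at d1
  simp only [Polynomial.coeff_sub, Polynomial.coeff_X_zero, Polynomial.coeff_C_zero] at d1
  have e1 : LinearMap.det Y₀.toLinearMap = ((LinearEquiv.det Y₀ : Fˣ) : F) := (LinearEquiv.coe_det Y₀).symm
  have e2 : LinearMap.det Z₀.toLinearMap = ((LinearEquiv.det Z₀ : Fˣ) : F) := (LinearEquiv.coe_det Z₀).symm
  have e3 : LinearMap.det B.toLinearMap = ((LinearEquiv.det B : Fˣ) : F) := (LinearEquiv.coe_det B).symm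
  have hY0 : LinearMap.det Y₀.toLinearMap ≠ 0 := by rw [e1]; exact Units.ne_zero _
  have hp'0 : p'.coeff 0 ≠ 0 := by
    intro h; apply hY0; rw [d1, h]; ring
  have hc0 : c ≠ 0 := by
    intro h; apply hY0; rw [d1, h]; ring
  have hd : (-1) ^ (m + 2 + 1) * q.coeff 0 =
      LinearMap.det B.toLinearMap * ((-1) ^ (m + 2) * p'.coeff 0 * c) := by
    have h1 := congrArg (fun x : Fˣ => (x : F)) hdet
    simp only [Units.val_mul] at h1
    rw [← e1, ← e2, ← e3, d1, d2] at h1
    rw [h1]; ring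
  -- the Krylov basis of `Z₀`
  obtain ⟨b₀, hb₀⟩ := exists_kb hv hm
  have hω : b₀.det ≠ 0 := by
    intro h
    have h1 := b₀.det_self
    rw [h] at h1
    simp at h1
  obtain ⟨Y, ⟨v', hv'⟩, hY1, hu1, hu2, hvol⟩ := main2 hm B hu hp'm hp'd hp'0 hc0 hc hqm
    (by rw [hqd, hm]) hd hω γ.ne_zero
  obtain ⟨g, hg⟩ := similar_of_cycVec hy hv' hpm hpd hpd hp0 hY1
  obtain ⟨h, hh1, hh2⟩ := sim_vec hv hu1 hqm hqd hqd hq0 hu2
  refine ⟨g, h, ?_, ?_⟩
  · -- the determinant
    apply Units.ext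
    rw [← hvol, LinearEquiv.coe_det]
    have h1 := Basis.det_comp b₀ h.toLinearMap b₀
    rw [b₀.det_self, mul_one] at h1
    rw [← h1]
    congr 1
    funext i
    rw [Function.comp_apply, hb₀, LinearEquiv.coe_coe]
    have h2 : ∀ k : ℕ, h ((Z₀.toLinearMap ^ k) v) = ((Y ∘ₗ B.toLinearMap) ^ k) u := by
      intro k
      induction k with
      | zero => simpa using hh2
      | succ k ih => rw [pow_succ', Module.End.mul_apply, hh1, ih, pow_succ', Module.End.mul_apply]
    exact h2 i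
  · -- the equation
    apply LinearEquiv.ext
    intro x
    have h1 : ∀ x, (g * Y₀ * g⁻¹) x = Y x := by
      intro x
      have h2 := hg (g⁻¹ x)
      have h3 : g (g⁻¹ x) = x := LinearEquiv.apply_symm_apply g x
      rw [h3] at h2
      exact h2
    have h4 : (h * Z₀ * h⁻¹) x = Y (B x) := by
      have h2 := hh1 (h⁻¹ x)
      have h3 : h (h⁻¹ x) = x := LinearEquiv.apply_symm_apply h x
      rw [h3] at h2
      exact h2
    rw [h4, ← h1]
    rfl

end K

end Cfsg.Agent.Lib.CovK
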