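import Cfsg.Agent.Lib.CyclicProd

/-! S2483, piece K: Krylov volumes (helper22). -/

set_option autoImplicit false

namespace Cfsg.Agent.Lib.CovK

open Module Polynomial Cfsg.Agent.Lib.CyclicProd

universe u v

variable {F : Type u} [Field F] {V : Type v} [AddCommGroup V] [Module F V]

/-- unitriangular change of a basis does not change the value of an alternating form -/
theorem alt_unitri {n : ℕ} (b : Basis (Fin n) F V) (ω : V [⋀^Fin n]→ₗ[F] F) (y : Fin n → V)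
    (h : ∀ i, y i - b i ∈ Submodule.span F (b '' {j | j < i})) : ω y = ω b := by
  have h1 : b.det y = 1 := by
    rw [Basis.det_apply]
    have h2 : ∀ i j, i ≠ j → ¬ (i < j) → b.toMatrix y i j = 0 ∧ True := by
      intro i j hij hlt
      refine ⟨?_, trivial⟩
      rw [Basis.toMatrix_apply]
      have h3 : y j = b j + (y j - b j) := by abel
      rw [h3, map_add, Finsupp.add_apply, Basis.repr_self, Finsupp.single_apply, if_neg (Ne.symm hij), zero_add]
      have h4 := (Basis.mem_span_image b).mp (h j)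
      by_contra hne
      exact hlt (h4 (Finsupp.mem_support_iff.mpr hne))
    have h5 : ∀ j, b.toMatrix y j j = 1 := by
      intro j
      rw [Basis.toMatrix_apply]
      have h3 : y j = b j + (y j - b j) := by abel
      rw [h3, map_add, Finsupp.add_apply, Basis.repr_self, Finsupp.single_apply, if_pos rfl]
      have h4 := (Basis.mem_span_image b).mp (h j)
      have h6 : b.repr (y j - b j) j = 0 := by
        by_contra hne
        exact lt_irrefl j (h4 (Finsupp.mem_support_iff.mpr hne))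
      rw [h6, add_zero]
    rw [Matrix.det_of_isUpperTriangular]
    · exact Finset.prod_eq_one fun i _ => h5 i
    · intro i j hij
      exact (h2 i j (ne_of_gt hij) (not_lt.mpr (le_of_lt hij))).1
  have h2 := AlternatingMap.eq_smul_basis_det b ω
  rw [h2, AlternatingMap.smul_apply, AlternatingMap.smul_apply, h1, Basis.det_self]

/-- Krylov vectors of `X` at `b 0` when `X b_i = b_(i+1) + a b_0`. -/
theorem krylov_mem {m : ℕ} (b : Basis (Fin (m + 1)) F V) (X : V →ₗ[F] V)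
    (h : ∀ (i : ℕ) (hi : i + 1 < m + 1), ∃ a : F, X (b ⟨i, by omega⟩) = b ⟨i + 1, hi⟩ + a • b 0) :
    ∀ (i : ℕ) (hi : i < m + 1), (X ^ i) (b 0) - b ⟨i, hi⟩ ∈ Submodule.span F (b '' {j | (j : ℕ) < i}) := by
  intro i
  induction i with
  | zero => intro hi; simp
  | succ i ih =>
    intro hi
    have h1 := ih (by omega)
    obtain ⟨a, ha⟩ := h i hi
    have hb0 : b 0 ∈ Submodule.span F (b '' {j : Fin (m + 1) | (j : ℕ) < i + 1}) :=
      Submodule.subset_span ⟨0, by simp, rfl⟩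
    have h2 : ∀ s ∈ Submodule.span F (b '' {j : Fin (m + 1) | (j : ℕ) < i}),
        X s ∈ Submodule.span F (b '' {j : Fin (m + 1) | (j : ℕ) < i + 1}) := by
      intro s hs
      have h3 : Submodule.span F (b '' {j : Fin (m + 1) | (j : ℕ) < i}) ≤
          (Submodule.span F (b '' {j : Fin (m + 1) | (j : ℕ) < i + 1})).comap X := by
        rw [Submodule.span_le]
        rintro _ ⟨j, hj, rfl⟩
        simp only [Set.mem_ofPred_eq] at hj
        obtain ⟨c, hc⟩ := h j (by omega)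
        rw [SetLike.mem_coe, Submodule.mem_comap]
        have h4 : b ⟨(j : ℕ), by omega⟩ = b j := rfl
        rw [h4] at hc
        rw [hc]
        refine Submodule.add_mem _ (Submodule.subset_span ⟨⟨j + 1, by omega⟩, ?_, rfl⟩) (Submodule.smul_mem _ _ hb0)
        simp only [Set.mem_ofPred_eq]; omega
      exact h3 hs
    have h3 := h2 _ h1
    rw [map_sub, ha, ← Module.End.mul_apply, ← pow_succ'] at h3
    have h4 : (X ^ (i + 1)) (b 0) - b ⟨i + 1, hi⟩ =
        ((X ^ (i + 1)) (b 0) - (b ⟨i + 1, hi⟩ + a • b 0)) + a • b 0 := by abel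
    rw [h4]
    exact Submodule.add_mem _ h3 (Submodule.smul_mem _ _ hb0)

theorem krylov_alt {m : ℕ} (b : Basis (Fin (m + 1)) F V) (X : V →ₗ[F] V)
    (h : ∀ (i : ℕ) (hi : i + 1 < m + 1), ∃ a : F, X (b ⟨i, by omega⟩) = b ⟨i + 1, hi⟩ + a • b 0)
    (ω : V [⋀^Fin (m + 1)]→ₗ[F] F) : ω (fun i => (X ^ (i : ℕ)) (b 0)) = ω b := by
  apply alt_unitri
  intro i
  exact krylov_mem b X h i i.2

/-- the induced form on the kernel of `φ` -/
noncomputable def ind {m : ℕ} (ω : V [⋀^Fin (m + 1)]→ₗ[F] F) (d : V) (D : Submodule F V) : D [⋀^Fin m]→ₗ[F] F :=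
  (ω.curryLeft d).compLinearMap D.subtype

theorem ind_apply {m : ℕ} (ω : V [⋀^Fin (m + 1)]→ₗ[F] F) (d : V) (D : Submodule F V) (y : Fin m → D) :
    ind ω d D y = ω (Fin.cons d (fun j => (y j : V))) := rfl

/-- the adapted basis -/
noncomputable def cb {m : ℕ} {φ : V →ₗ[F] F} {d : V} (hφ : φ d = 1) (b : Basis (Fin m) F (LinearMap.ker φ)) :
    Basis (Fin (m + 1)) F V :=
  Basis.mkFinCons d b (by
    intro c x hx h
    have h1 := congrArg φ h
    rw [map_add, map_smul, hφ, LinearMap.mem_ker.mp hx, map_zero, smul_eq_mul, mul_one, add_zero] at h1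
    exact h1) (by
    intro z
    refine ⟨-φ z, ?_⟩
    rw [LinearMap.mem_ker, map_add, map_smul, hφ, smul_eq_mul, mul_one, add_neg_cancel])

theorem cb_coe {m : ℕ} {φ : V →ₗ[F] F} {d : V} (hφ : φ d = 1) (b : Basis (Fin m) F (LinearMap.ker φ)) :
    (cb hφ b : Fin (m + 1) → V) = Fin.cons d (fun j => (b j : V)) := Basis.coe_mkFinCons _ _ _ _

theorem ind_ne_zero [FiniteDimensional F V] {m : ℕ} {ω : V [⋀^Fin (m + 1)]→ₗ[F] F} (hω : ω ≠ 0) {φ : V →ₗ[F] F} {d : V}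
    (hφ : φ d = 1) (hD : finrank F (LinearMap.ker φ) = m) : ind ω d (LinearMap.ker φ) ≠ 0 := by
  let b := finBasisOfFinrankEq F (LinearMap.ker φ) hD
  have h1 := (AlternatingMap.map_basis_ne_zero_iff (cb hφ b) ω).mpr hω
  rw [cb_coe] at h1
  intro h
  apply h1
  have := congrArg (fun f => f b) h
  simpa [ind_apply] using this

/-- the induction step of `prep`, with explicit data -/
theorem prep_step {n : ℕ} (V : Type v) [AddCommGroup V] [Module F V] [FiniteDimensional F V]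
    (hV : finrank F V = n + 2) (T : V ≃ₗ[F] V) (d : V) (hd : d ≠ 0) :
    ∃ φ : V →ₗ[F] F, φ d = 1 ∧ φ (T.symm d) ≠ 0 ∧ finrank F (LinearMap.ker φ) = n + 1 ∧
      ∃ T₁ : LinearMap.ker φ ≃ₗ[F] LinearMap.ker φ, ∀ (d₁ : LinearMap.ker φ) (θ₁ : LinearMap.ker φ →ₗ[F] F)
        (S₁ : LinearMap.ker φ →ₗ[F] LinearMap.ker φ) (φ₁ : LinearMap.ker φ →ₗ[F] F), CoCyc S₁ θ₁ →
        (∀ z, CycVec (T₁.toLinearMap ∘ₗ (S₁ + θ₁.smulRight z)) d₁) → (∀ v, φ₁ (S₁ v) = 0) → φ₁ (T₁.symm d₁) ≠ 0 →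
        ∃ (θ : V →ₗ[F] F) (S₀ : V →ₗ[F] V), CoCyc S₀ θ ∧
          (∀ z, CycVec (T.toLinearMap ∘ₗ (S₀ + θ.smulRight z)) d) ∧ (∀ v, φ (S₀ v) = 0) ∧
          ∀ z, ∃ z₁ : LinearMap.ker φ, (∃ a : F, (T.toLinearMap ∘ₗ (S₀ + θ.smulRight z)) d = d₁ + a • d) ∧
            ∀ h : LinearMap.ker φ, ∃ a : F, (T.toLinearMap ∘ₗ (S₀ + θ.smulRight z)) (h : V) =
              (((T₁.toLinearMap ∘ₗ (S₁ + θ₁.smulRight z₁)) h : LinearMap.ker φ) : V) + a • d := by
  obtain ⟨φ₀, h1, h2⟩ := exists_dual_ne_ne (F := F) hd ((T.symm.map_ne_zero_iff).2 hd)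
  -- normalise
  obtain ⟨φ, hφd, hφT⟩ : ∃ φ : V →ₗ[F] F, φ d = 1 ∧ φ (T.symm d) ≠ 0 :=
    ⟨(φ₀ d)⁻¹ • φ₀, by simp [h1], by simpa [h1] using h2⟩
  have hφ0 : φ ≠ 0 := by rintro rfl; simp at hφd
  refine ⟨φ, hφd, hφT, finrank_ker_dual hφ0 hV, ?_⟩
  set D := LinearMap.ker φ with hD
  have hDfin : finrank F D = n + 1 := finrank_ker_dual hφ0 hV
  let π : V →ₗ[F] D := LinearMap.codRestrict D (LinearMap.id - φ.smulRight d) (by
    intro v; simp [hD, hφd])
  have hπ : ∀ v, ((π v : D) : V) = v - φ v • d := fun v => rfl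
  have hπD : ∀ h : D, π h = h := by
    intro h
    apply Subtype.ext
    rw [hπ, LinearMap.mem_ker.1 h.2, zero_smul, sub_zero]
  let T₁' : D →ₗ[F] D := π ∘ₗ T.toLinearMap ∘ₗ D.subtype
  have hT₁' : ∀ h : D, T₁' h = π (T h) := fun h => rfl
  have hinj : Function.Injective T₁' := by
    rw [← LinearMap.ker_eq_bot, eq_bot_iff]
    intro h hh
    rw [LinearMap.mem_ker, hT₁'] at hh
    have e1 : T (h : V) = φ (T h) • d := by
      have := congrArg (Subtype.val) hh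
      rw [hπ] at this
      exact sub_eq_zero.1 this
    have e2 : (h : V) = φ (T h) • T.symm d := by
      rw [← map_smul, ← e1, LinearEquiv.symm_apply_apply]
    have e3 : φ (T h) * φ (T.symm d) = 0 := by
      rw [← smul_eq_mul, ← map_smul, ← e2]; exact h.2
    have e4 : φ (T h) = 0 := by
      rcases mul_eq_zero.1 e3 with h | h
      · exact h
      · exact absurd h hφT
    rw [Submodule.mem_bot]
    apply Subtype.ext
    rw [e2, e4, zero_smul]; rfl
  let T₁ : D ≃ₗ[F] D := LinearEquiv.ofInjectiveEndo T₁' hinj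
  have hT₁ : ∀ h : D, T₁ h = π (T h) := fun h => rfl
  refine ⟨T₁, fun d₁ θ₁ S₁ φ₁ ha hb hc hc2 => ?_⟩
  set f₁ : D := T₁.symm d₁ with hf₁
  let S₀ : V →ₗ[F] V := D.subtype ∘ₗ (S₁ ∘ₗ π + φ.smulRight f₁)
  have hS₀ : ∀ v, S₀ v = ((S₁ (π v) + φ v • f₁ : D) : V) := fun v => rfl
  have hdec : ∀ v : V, v = (π v : V) + φ v • d := fun v => by rw [hπ]; abel
  have hX : ∀ z, ∃ z₁ : D, π ((T.toLinearMap ∘ₗ (S₀ + (θ₁ ∘ₗ π).smulRight z)) d) = d₁ ∧
      ∀ h : D, π ((T.toLinearMap ∘ₗ (S₀ + (θ₁ ∘ₗ π).smulRight z)) (h : V)) =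
        (T₁.toLinearMap ∘ₗ (S₁ + θ₁.smulRight z₁)) h := by
    intro z
    let z₁ : D := T₁.symm (π (T z))
    have hz₁ : T₁ z₁ = π (T z) := LinearEquiv.apply_symm_apply _ _
    refine ⟨z₁, ?_, fun h => ?_⟩
    · have hπd : π d = 0 := by
        apply Subtype.ext
        rw [hπ, hφd, one_smul, sub_self]; rfl
      have : (S₀ + (θ₁ ∘ₗ π).smulRight z) d = f₁ := by
        rw [LinearMap.add_apply, hS₀, LinearMap.smulRight_apply, LinearMap.comp_apply, hπd,
          map_zero, map_zero, zero_smul, hφd, one_smul, zero_add, add_zero]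
      rw [LinearMap.comp_apply, this, LinearEquiv.coe_coe, ← hT₁, hf₁,
        LinearEquiv.apply_symm_apply]
    · simp only [LinearMap.comp_apply, LinearMap.add_apply, LinearMap.smulRight_apply,
        LinearEquiv.coe_coe, map_add, map_smul, hπD, hz₁]
      congr 1
      rw [hT₁, hS₀, hπD, LinearMap.mem_ker.1 h.2, zero_smul, add_zero]
  refine ⟨θ₁ ∘ₗ π, S₀, ?_, ?_, ?_, ?_⟩
  · intro W hW1 hW2
    have hW₁ : W.comap D.subtype = ⊥ := by
      apply ha
      · intro w hw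
        have := hW1 _ hw
        rw [LinearMap.comp_apply] at this
        rwa [Submodule.coe_subtype, hπD] at this
      · intro w hw
        have := hW2 _ hw
        rw [hS₀, Submodule.coe_subtype, hπD, LinearMap.mem_ker.1 w.2, zero_smul,
          add_zero] at this
        exact this
    rw [eq_bot_iff]
    intro w hw
    have h3 := hW2 w hw
    rw [hS₀] at h3
    have h4 : (S₁ (π w) + φ w • f₁ : D) ∈ W.comap D.subtype := h3
    rw [hW₁, Submodule.mem_bot] at h4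
    have h5 := congrArg φ₁ h4
    rw [map_add, hc, zero_add, map_smul, smul_eq_mul, map_zero, mul_eq_zero] at h5
    have h6 : φ w = 0 := by
      rcases h5 with h | h
      · exact h
      · exact absurd h hc2
    have h7 : (⟨w, h6⟩ : D) ∈ W.comap D.subtype := hw
    rw [hW₁, Submodule.mem_bot] at h7
    rw [Submodule.mem_bot]
    exact congrArg Subtype.val h7
  · intro z W hd' hW
    obtain ⟨z₁, hX1, hX2⟩ := hX z
    have hπW : ∀ w ∈ W, ((π w : D) : V) ∈ W := fun w hw => by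
      rw [hπ]; exact W.sub_mem hw (W.smul_mem _ hd')
    have hW₁ : W.comap D.subtype = ⊤ := by
      apply hb z₁
      · -- d₁ ∈ W
        have h3 := hπW _ (hW d hd')
        rw [hX1] at h3
        exact h3
      · intro h hh
        have h3 := hπW _ (hW h hh)
        rw [hX2] at h3
        exact h3
    rw [eq_top_iff]
    intro w _
    have h5 : (π w : D) ∈ W.comap D.subtype := by rw [hW₁]; trivial
    rw [hdec w]
    exact W.add_mem h5 (W.smul_mem _ hd')
  · intro v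
    rw [hS₀]
    exact (S₁ (π v) + φ v • f₁ : D).2
  · intro z
    obtain ⟨z₁, hX1, hX2⟩ := hX z
    refine ⟨z₁, ⟨φ ((T.toLinearMap ∘ₗ (S₀ + (θ₁ ∘ₗ π).smulRight z)) d), ?_⟩, fun h =>
      ⟨φ ((T.toLinearMap ∘ₗ (S₀ + (θ₁ ∘ₗ π).smulRight z)) (h : V)), ?_⟩⟩
    · rw [← hX1]; exact hdec _
    · rw [← hX2]; exact hdec _

/-- basis of Krylov vectors -/
theorem exists_kb [FiniteDimensional F V] {T : V →ₗ[F] V} {v : V} (h : CycVec T v) {n : ℕ} (hn : finrank F V = n + 1) :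
    ∃ b : Basis (Fin (n + 1)) F V, ∀ i : Fin (n + 1), b i = (T ^ (i : ℕ)) v :=
  ⟨basisOfLinearIndependentOfCardEqFinrank ((cycVec_iff_linearIndependent T v (n + 1) hn).1 h) (by simp [hn]),
    fun i => by simp⟩

/-- `ω` of the Krylov vectors of `X` at `d` is the induced form of the Krylov vectors of `X₁` at `d₁`. -/
theorem krylov_step [FiniteDimensional F V] {n : ℕ} {φ : V →ₗ[F] F} {d : V} (hφ : φ d = 1)
    (hD : finrank F (LinearMap.ker φ) = n + 1) {X : V →ₗ[F] V} {X₁ : LinearMap.ker φ →ₗ[F] LinearMap.ker φ}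
    {d₁ : LinearMap.ker φ} (hc : CycVec X₁ d₁) (h1 : ∃ a : F, X d = d₁ + a • d)
    (h2 : ∀ h : LinearMap.ker φ, ∃ a : F, X h = (X₁ h : V) + a • d) (ω : V [⋀^Fin (n + 2)]→ₗ[F] F) :
    ω (fun i => (X ^ (i : ℕ)) d) = ind ω d (LinearMap.ker φ) (fun i => (X₁ ^ (i : ℕ)) d₁) := by
  obtain ⟨b₁, hb₁⟩ := exists_kb hc hD
  have h3 := krylov_alt (cb hφ b₁) X (by
    intro i hi
    have e0 : cb hφ b₁ 0 = d := by rw [cb_coe]; rfl
    have e1 : ∀ (j : ℕ) (hj : j + 1 < n + 1 + 1), cb hφ b₁ ⟨j + 1, hj⟩ = ((X₁ ^ j) d₁ : LinearMap.ker φ) := by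
      intro j hj
      rw [cb_coe]
      have : (⟨j + 1, hj⟩ : Fin (n + 1 + 1)) = Fin.succ ⟨j, by omega⟩ := rfl
      rw [this, Fin.cons_succ, hb₁]
    rw [e0, e1 i hi]
    rcases i with _ | i
    · have : (⟨0, by omega⟩ : Fin (n + 1 + 1)) = 0 := rfl
      rw [this, e0]
      simpa using h1
    · rw [e1 i (by omega), pow_succ', Module.End.mul_apply]
      exact h2 _) ω
  have e0 : cb hφ b₁ 0 = d := by rw [cb_coe]; rfl
  rw [e0] at h3
  rw [h3, ind_apply, cb_coe]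
  congr 2
  funext j
  rw [hb₁]

/-- `prep` with a prescribed Krylov volume, dimension at least 2 -/
theorem prep2 (n : ℕ) : ∀ (V : Type v) [AddCommGroup V] [Module F V] [FiniteDimensional F V],
    finrank F V = n + 2 → ∀ (T : V ≃ₗ[F] V) (d : V), d ≠ 0 → ∀ (ω : V [⋀^Fin (n + 2)]→ₗ[F] F), ω ≠ 0 → ∀ (γ : F), γ ≠ 0 →
    ∃ (θ : V →ₗ[F] F) (S₀ : V →ₗ[F] V) (φ : V →ₗ[F] F), CoCyc S₀ θ ∧
      (∀ z, CycVec (T.toLinearMap ∘ₗ (S₀ + θ.smulRight z)) d) ∧ (∀ v, φ (S₀ v) = 0) ∧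
      φ d ≠ 0 ∧ φ (T.symm d) ≠ 0 ∧
      ∀ z, ω (fun i => ((T.toLinearMap ∘ₗ (S₀ + θ.smulRight z)) ^ (i : ℕ)) d) = γ := by
  induction n with
  | zero =>
    intro V _ _ _ hV T d hd ω hω γ hγ
    obtain ⟨φ, hφ1, hφ2, hD, T₁, hstep⟩ := prep_step V hV T d hd
    have hne := ind_ne_zero hω hφ1 hD
    -- the vector `d₁`
    obtain ⟨y, hy⟩ : ∃ y : Fin 1 → LinearMap.ker φ, ind ω d (LinearMap.ker φ) y ≠ 0 := by
      by_contra hcon
      push Not at hcon
      exact hne (AlternatingMap.ext hcon)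
    set c := ind ω d (LinearMap.ker φ) y with hc
    let d₁ : LinearMap.ker φ := (γ * c⁻¹) • y 0
    have hval : ind ω d (LinearMap.ker φ) (fun _ => d₁) = γ := by
      have h1 : (fun _ : Fin 1 => d₁) = Function.update y 0 ((γ * c⁻¹) • y 0) := by
        funext j
        rw [Subsingleton.elim j 0, Function.update_self]
      rw [h1, AlternatingMap.map_update_smul, Function.update_eq_self, ← hc, smul_eq_mul, mul_assoc,
        inv_mul_cancel₀ hy, mul_one]
    have hd₁ : d₁ ≠ 0 := by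
      intro h0
      rw [h0] at hval
      have h1 : (fun _ : Fin 1 => (0 : LinearMap.ker φ)) = 0 := rfl
      rw [h1, AlternatingMap.map_zero] at hval
      exact hγ hval.symm
    obtain ⟨θ₁, S₁, φ₁, a1, a2, a3, _, a5⟩ := prep 0 (LinearMap.ker φ) hD T₁ d₁ hd₁
    obtain ⟨θ, S₀, b1, b2, b3, b4⟩ := hstep d₁ θ₁ S₁ φ₁ a1 a2 a3 a5
    refine ⟨θ, S₀, φ, b1, b2, b3, by rw [hφ1]; exact one_ne_zero, hφ2, fun z => ?_⟩
    obtain ⟨z₁, c1, c2⟩ := b4 z
    rw [krylov_step hφ1 hD (a2 z₁) c1 c2 ω, ← hval]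
    congr 1
    funext j
    have : (j : ℕ) = 0 := by have := j.2; omega
    rw [this, pow_zero]; rfl
  | succ n ih =>
    intro V _ _ _ hV T d hd ω hω γ hγ
    obtain ⟨φ, hφ1, hφ2, hD, T₁, hstep⟩ := prep_step V hV T d hd
    have hne := ind_ne_zero hω hφ1 hD
    have hnt : Nontrivial (LinearMap.ker φ) := Module.nontrivial_of_finrank_pos (R := F) (by rw [hD]; omega)
    obtain ⟨d₁, hd₁⟩ := exists_ne (0 : LinearMap.ker φ)
    obtain ⟨θ₁, S₁, φ₁, a1, a2, a3, _, a5, a6⟩ := ih (LinearMap.ker φ) hD T₁ d₁ hd₁ _ hne γ hγ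
    obtain ⟨θ, S₀, b1, b2, b3, b4⟩ := hstep d₁ θ₁ S₁ φ₁ a1 a2 a3 a5
    refine ⟨θ, S₀, φ, b1, b2, b3, by rw [hφ1]; exact one_ne_zero, hφ2, fun z => ?_⟩
    obtain ⟨z₁, c1, c2⟩ := b4 z
    rw [krylov_step hφ1 hD (a2 z₁) c1 c2 ω, a6 z₁]

end Cfsg.Agent.Lib.CovK
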