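import Mathlib
import Cfsg.Agent.Lib.CyclicComm

set_option autoImplicit false
set_option linter.all false

/-!
# S2483-PLAN piece LB: the lower bound for the covering number of `PSL_n(F)`
-/

namespace Cfsg.Agent.Lib.CovLB

open Module Polynomial Cfsg.Agent.Lib.CyclicProd Cfsg.Agent.Lib.CyclicComm Matrix

/-- a rootless polynomial `X ^ e + u X + b` -/
theorem rootless_trinomial {F : Type*} [Field F] [Finite F] {e : ℕ} (he : e ≠ 0) {b : F} (hb : b ≠ 0) :
    ∃ u : F, ∀ x : F, x ^ e + u * x + b ≠ 0 := by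
  by_contra hcon
  push Not at hcon
  choose x hx using hcon
  have hx0' : ∀ u, x u ≠ 0 := by
    intro u h
    have := hx u
    rw [h, zero_pow he, mul_zero, zero_add, zero_add] at this
    exact hb this
  have hinj : Function.Injective x := by
    intro u v huv
    have h1 := hx u
    have h2 := hx v
    rw [huv] at h1
    have h3 : (u - v) * x v = 0 := by linear_combination h1 - h2
    rcases mul_eq_zero.1 h3 with h | h
    · exact sub_eq_zero.1 h
    · exact absurd h (hx0' v)
  obtain ⟨u, hu⟩ := Finite.surjective_of_injective hinj 0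
  exact hx0' u hu

/-- `rootless` of S2483-SIG -/
theorem rootless {F : Type*} [Field F] [Finite F] {e : ℕ} (he : 2 ≤ e) {b : F} (hb : b ≠ 0) :
    ∃ h : F[X], h.Monic ∧ h.natDegree = e ∧ h.coeff 0 = b ∧ ∀ x : F, h.eval x ≠ 0 := by
  obtain ⟨u, hu⟩ := rootless_trinomial (F := F) (e := e) (by omega) hb
  have hdeg : (C u * X + C b : F[X]).degree < e := by
    refine lt_of_le_of_lt (degree_linear_le) ?_
    exact_mod_cast (by omega : 1 < e)
  have hm : (X ^ e + (C u * X + C b) : F[X]).Monic := monic_X_pow_add hdeg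
  refine ⟨X ^ e + (C u * X + C b), hm, ?_, ?_, ?_⟩
  · apply natDegree_eq_of_degree_eq_some
    rw [degree_add_eq_left_of_degree_lt (by rw [degree_X_pow]; exact hdeg), degree_X_pow]
  · simp [coeff_X_pow, show (0 : ℕ) ≠ e by omega]
  · intro x
    have := hu x
    simpa [add_assoc] using this

/-- `n - 1` conjugates of a transvection have a common nonzero fixed vector -/
theorem exists_fixed {F : Type*} [Field F] {n : ℕ} {i j : Fin n} (hij : i ≠ j) (G : Fin (n - 1) → Matrix.SpecialLinearGroup (Fin n) F)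
    {t : Matrix.SpecialLinearGroup (Fin n) F} (ht : (t : Matrix (Fin n) (Fin n) F) = transvection i j 1) :
    ∃ v : Fin n → F, v ≠ 0 ∧ ∀ k, ((G k * t * (G k)⁻¹ : Matrix.SpecialLinearGroup (Fin n) F) : Matrix (Fin n) (Fin n) F) *ᵥ v = v := by
  have hn : 0 < n := lt_of_le_of_lt (Nat.zero_le _) i.2
  let L : (Fin n → F) →ₗ[F] (Fin (n - 1) → F) := LinearMap.pi (fun k => (LinearMap.proj j) ∘ₗ
    (Matrix.toLin' (((G k)⁻¹ : Matrix.SpecialLinearGroup (Fin n) F) : Matrix (Fin n) (Fin n) F)))
  have hker : LinearMap.ker L ≠ ⊥ := LinearMap.ker_ne_bot_of_finrank_lt (by simp only [finrank_fin_fun]; omega)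
  obtain ⟨v, hv, hv0⟩ := (Submodule.ne_bot_iff _).1 hker
  refine ⟨v, hv0, fun k => ?_⟩
  have h1 : ((((G k)⁻¹ : Matrix.SpecialLinearGroup (Fin n) F) : Matrix (Fin n) (Fin n) F) *ᵥ v) j = 0 := by
    have := congrFun (LinearMap.mem_ker.1 hv) k
    simpa [L] using this
  rw [Matrix.SpecialLinearGroup.coe_mul, Matrix.SpecialLinearGroup.coe_mul, ← mulVec_mulVec, ← mulVec_mulVec, ht]
  set w := (((G k)⁻¹ : Matrix.SpecialLinearGroup (Fin n) F) : Matrix (Fin n) (Fin n) F) *ᵥ v with hw
  have h2 : (transvection i j (1 : F)) *ᵥ w = w := by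
    rw [transvection, add_mulVec, one_mulVec, single_mulVec]
    rw [h1]
    simp
  rw [h2, hw, mulVec_mulVec, ← Matrix.SpecialLinearGroup.coe_mul, mul_inv_cancel, Matrix.SpecialLinearGroup.coe_one, one_mulVec]

theorem LB {F : Type*} [Field F] [Fintype F] (h4 : 4 ≤ Fintype.card F) (n : ℕ) (hn : 3 ≤ n) :
    (∃ x : Matrix.ProjectiveSpecialLinearGroup (Fin n) F, x ≠ 1 ∧ ∃ g : Matrix.ProjectiveSpecialLinearGroup (Fin n) F, ∀ f : Fin (n - 1) → Matrix.ProjectiveSpecialLinearGroup (Fin n) F, g ≠ (List.ofFn fun i => f i * x * (f i)⁻¹).prod) := by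
  classical
  let i : Fin n := ⟨0, by omega⟩
  let j : Fin n := ⟨1, by omega⟩
  have hij : i ≠ j := by
    intro h
    have := congrArg Fin.val h
    simp [i, j] at this
  let t : Matrix.SpecialLinearGroup (Fin n) F := ⟨transvection i j 1, det_transvection_of_ne i j hij 1⟩
  let π : Matrix.SpecialLinearGroup (Fin n) F →* ProjectiveSpecialLinearGroup (Fin n) F :=
    QuotientGroup.mk' (Subgroup.center (Matrix.SpecialLinearGroup (Fin n) F))
  have hπ : Function.Surjective π := QuotientGroup.mk'_surjective _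
  have hker : ∀ A : Matrix.SpecialLinearGroup (Fin n) F, π A = 1 → A ∈ Subgroup.center (Matrix.SpecialLinearGroup (Fin n) F) := by
    intro A hA
    exact (QuotientGroup.eq_one_iff A).1 hA
  obtain ⟨q, hqm, hqd, hq0, hqr⟩ := rootless (F := F) (e := n) (by omega) (b := (-1) ^ n) (by
    exact pow_ne_zero _ (neg_ne_zero.2 one_ne_zero))
  obtain ⟨c, hc, hcq⟩ := exists_sl_mcyc hqm hqd (by rw [hq0, ← pow_add, ← two_mul, pow_mul]; simp)
  refine ⟨π t, ?_, π c, ?_⟩
  · intro h
    obtain ⟨r, -, hr⟩ := Matrix.SpecialLinearGroup.mem_center_iff.1 (hker t h)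
    have h1 := congrFun (congrFun hr i) j
    simp [t, transvection, hij, Matrix.one_apply_ne hij] at h1
  · intro f hf
    choose G hG using fun k => hπ (f k)
    obtain ⟨v, hv0, hv⟩ := exists_fixed hij G (t := t) rfl
    set P : Matrix.SpecialLinearGroup (Fin n) F := (List.ofFn fun k => G k * t * (G k)⁻¹).prod with hP
    have hPv : (P : Matrix (Fin n) (Fin n) F) *ᵥ v = v := by
      let S : Submonoid (Matrix.SpecialLinearGroup (Fin n) F) :=
        { carrier := {A | (A : Matrix (Fin n) (Fin n) F) *ᵥ v = v}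
          one_mem' := by simp
          mul_mem' := by
            intro a b ha hb
            show ((a * b : Matrix.SpecialLinearGroup (Fin n) F) : Matrix (Fin n) (Fin n) F) *ᵥ v = v
            rw [Matrix.SpecialLinearGroup.coe_mul, ← mulVec_mulVec]
            rw [show (b : Matrix (Fin n) (Fin n) F) *ᵥ v = v from hb]
            exact ha }
      have : P ∈ S := by
        apply Submonoid.list_prod_mem
        intro x hx
        rw [List.mem_ofFn] at hx
        obtain ⟨k, rfl⟩ := hx
        exact hv k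
      exact this
    have hπP : π P = (List.ofFn fun i => f i * π t * (f i)⁻¹).prod := by
      rw [hP, map_list_prod, List.map_ofFn]
      congr 2
      funext k
      simp only [Function.comp_apply, map_mul, map_inv, hG]
    have h1 : π (c * P⁻¹) = 1 := by
      rw [map_mul, map_inv, hπP, ← hf, mul_inv_cancel]
    obtain ⟨r, -, hr⟩ := Matrix.SpecialLinearGroup.mem_center_iff.1 (hker _ h1)
    have h2 : (c : Matrix (Fin n) (Fin n) F) *ᵥ v = r • v := by
      have h3 : c = (c * P⁻¹) * P := by group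
      rw [h3, Matrix.SpecialLinearGroup.coe_mul, ← mulVec_mulVec, hPv, ← hr]
      ext k
      simp [mulVec_diagonal]
    have h4 : ∀ g : F[X], (aeval (Matrix.toLin' (c : Matrix (Fin n) (Fin n) F)) g) v = g.eval r • v := by
      intro g
      have h5 : (Matrix.toLin' (c : Matrix (Fin n) (Fin n) F)) v = r • v := by rw [Matrix.toLin'_apply, h2]
      exact Module.End.aeval_apply_of_hasEigenvector (f := Matrix.toLin' (c : Matrix (Fin n) (Fin n) F)) (μ := r) (x := v)
        ⟨Module.End.mem_eigenspace_iff.2 h5, hv0⟩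
    have h6 := h4 q
    rw [toLin'_aeval, hcq, map_zero, LinearMap.zero_apply] at h6
    rcases smul_eq_zero.1 h6.symm with h | h
    · exact hqr r h
    · exact hv0 h

end Cfsg.Agent.Lib.CovLB
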