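import Mathlib
import Cfsg.Agent.Lib.CovBas3
import Cfsg.Agent.Lib.CovSTAR
import Cfsg.Agent.Lib.CyclicComm

set_option autoImplicit false
set_option linter.all false

/-!
# S2483-PLAN piece N3: scalars for cyclic operators in dimension 3
-/

namespace Cfsg.Agent.Lib.CovN3

open Module Polynomial Cfsg.Agent.Lib.CyclicProd Cfsg.Agent.Lib.CovDefs Cfsg.Agent.Lib.CyclicComm

universe u

variable {F : Type u} [Field F]

section irr

variable {V : Type u} [AddCommGroup V] [Module F V] [FiniteDimensional F V]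

theorem toLinearMap_pow (A : V ≃ₗ[F] V) (k : ℕ) : (A ^ k).toLinearMap = A.toLinearMap ^ k := by
  induction k with
  | zero => rfl
  | succ k ih => rw [pow_succ, pow_succ, ← ih]; rfl

theorem full_of_irr [Fintype F] {A : V ≃ₗ[F] V} {p : F[X]} (hA : Cyc A p) (hirr : Irreducible p) : Full A := by
  obtain ⟨hm, hd, ⟨v, hv⟩, h0⟩ := hA
  intro γ
  obtain ⟨g, hg⟩ := exists_det_aeval hv hm monic_one hirr isCoprime_one_right (by rw [mul_one]; exact hd)
    (by rw [mul_one]; exact h0) (γ : F)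
  have hne : LinearMap.det (aeval A.toLinearMap g) ≠ 0 := by rw [hg]; exact γ.ne_zero
  refine ⟨LinearMap.equivOfDetNeZero _ hne, ?_, ?_⟩
  · apply Units.ext
    rw [LinearEquiv.coe_det]
    exact hg
  · have h1 := ((Commute.all g (X : F[X])).map (aeval A.toLinearMap)).eq
    rw [aeval_X] at h1
    ext x
    exact LinearMap.congr_fun h1 x

theorem pow_card_cube [Fintype F] {T : V →ₗ[F] V} {p : F[X]} (hm : p.Monic) (hd : p.natDegree = 3) (h0 : aeval T p = 0)
    (hirr : Irreducible p) : T ^ (Fintype.card F ^ 3) = T := by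
  classical
  have : Fact (Irreducible p) := ⟨hirr⟩
  have hfd : FiniteDimensional F (AdjoinRoot p) := (AdjoinRoot.powerBasis' hm).finite
  have hfin : Finite (AdjoinRoot p) := Module.finite_of_finite F
  have hft : Fintype (AdjoinRoot p) := Fintype.ofFinite _
  have hfr : finrank F (AdjoinRoot p) = 3 := by
    rw [PowerBasis.finrank (AdjoinRoot.powerBasis' hm), AdjoinRoot.powerBasis'_dim, hd]
  have hc : Fintype.card (AdjoinRoot p) = Fintype.card F ^ 3 := by
    rw [Module.card_eq_pow_finrank (K := F), hfr]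
  have h1 : AdjoinRoot.mk p (X ^ (Fintype.card F ^ 3) - X) = 0 := by
    rw [map_sub, map_pow, AdjoinRoot.mk_X, ← hc, FiniteField.pow_card, sub_self]
  rw [AdjoinRoot.mk_eq_zero] at h1
  obtain ⟨r, hr⟩ := h1
  have h2 := congrArg (aeval T) hr
  rw [map_mul, h0, zero_mul, map_sub, map_pow, aeval_X, sub_eq_zero] at h2
  exact h2

theorem pow_norm [Fintype F] {T : V →ₗ[F] V} {p : F[X]} (hm : p.Monic) (hd : p.natDegree = 3) (h0 : aeval T p = 0)
    (hirr : Irreducible p) (hp0 : p.coeff 0 ≠ 0) :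
    ∃ z : Fˣ, T ^ (1 + Fintype.card F + Fintype.card F ^ 2) = (z : F) • 1 := by
  classical
  have : Fact (Irreducible p) := ⟨hirr⟩
  have hfd : FiniteDimensional F (AdjoinRoot p) := (AdjoinRoot.powerBasis' hm).finite
  have hfin : Finite (AdjoinRoot p) := Module.finite_of_finite F
  have hfr : finrank F (AdjoinRoot p) = 3 := by
    rw [PowerBasis.finrank (AdjoinRoot.powerBasis' hm), AdjoinRoot.powerBasis'_dim, hd]
  have h1 := FiniteField.algebraMap_norm_eq_pow_sum (K := F) (L := AdjoinRoot p) (x := AdjoinRoot.root p)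
  rw [hfr, Finset.sum_range_succ, Finset.sum_range_succ, Finset.sum_range_one, pow_zero, pow_one, Nat.card_eq_fintype_card] at h1
  set z := Algebra.norm F (AdjoinRoot.root p) with hz
  have hz0 : z ≠ 0 := by
    rw [hz, Algebra.norm_ne_zero_iff]
    intro h
    have h2 : AdjoinRoot.mk p X = 0 := by rw [AdjoinRoot.mk_X]; exact h
    rw [AdjoinRoot.mk_eq_zero] at h2
    have h3 := natDegree_le_of_dvd h2 X_ne_zero
    rw [natDegree_X] at h3
    omega
  refine ⟨Units.mk0 z hz0, ?_⟩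
  have h2 : AdjoinRoot.mk p (X ^ (1 + Fintype.card F + Fintype.card F ^ 2) - C z) = 0 := by
    rw [map_sub, map_pow, AdjoinRoot.mk_X, ← h1, AdjoinRoot.mk_C, AdjoinRoot.algebraMap_eq, sub_self]
  rw [AdjoinRoot.mk_eq_zero] at h2
  obtain ⟨r, hr⟩ := h2
  have h3 := congrArg (aeval T) hr
  rw [map_mul, h0, zero_mul, map_sub, map_pow, aeval_X, aeval_C, sub_eq_zero] at h3
  rw [h3, Algebra.algebraMap_eq_smul_one]
  rfl

theorem cyc_pow_card [Fintype F] (h3 : finrank F V = 3) {A : V ≃ₗ[F] V} {p : F[X]} (hA : Cyc A p) (hirr : Irreducible p) :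
    Cyc (A ^ Fintype.card F) p := by
  obtain ⟨hm, hd, ⟨v, hv⟩, h0⟩ := hA
  refine ⟨hm, hd, ⟨v, ?_⟩, ?_⟩
  · intro W hW1 hW2
    apply hv W hW1
    intro w hw
    rw [← pow_card_cube hm (by rw [hd, h3]) h0 hirr, show Fintype.card F ^ 3 = Fintype.card F * Fintype.card F ^ 2 by ring, pow_mul]
    rw [toLinearMap_pow] at hW2
    exact pow_mem_of_inv hW2 hw _
  · rw [toLinearMap_pow, ← Polynomial.expand_aeval, FiniteField.expand_card, map_pow, h0]
    exact zero_pow Fintype.card_ne_zero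

theorem exists_det_one {A B : V ≃ₗ[F] V} {p : F[X]} (hA : Cyc A p) (hB : Cyc B p) (hf : Full A) :
    ∃ g : V ≃ₗ[F] V, LinearEquiv.det g = 1 ∧ B = g * A * g⁻¹ := by
  obtain ⟨g, hg⟩ := hA.conj_of hB
  obtain ⟨c, hc, hcA⟩ := hf (LinearEquiv.det g)⁻¹
  refine ⟨g * c, by rw [map_mul, hc, mul_inv_cancel], ?_⟩
  rw [hg, mul_inv_rev]
  have : g * c * A * (c⁻¹ * g⁻¹) = g * (c * A) * c⁻¹ * g⁻¹ := by group
  rw [this, hcA]; group

theorem n3_irr [Fintype F] (h3 : finrank F V = 3) {A : V ≃ₗ[F] V} {p : F[X]} (hA : Cyc A p) (hirr : Irreducible p) :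
    ∃ z : Fˣ, IP A [1, 1, 1] (sc V z) := by
  have hf := full_of_irr hA hirr
  have hm := hA.1
  have hd := hA.2.1
  have h0 := hA.2.2.2
  have hp0 : p.coeff 0 ≠ 0 := by
    intro h
    have := hA.det
    rw [h, mul_zero] at this
    exact (LinearEquiv.det A).ne_zero this
  obtain ⟨z, hz⟩ := pow_norm hm (by rw [hd, h3]) h0 hirr hp0
  have h1 := cyc_pow_card h3 hA hirr
  have h2 := cyc_pow_card h3 h1 hirr
  obtain ⟨g, hg, hgA⟩ := exists_det_one hA h1 hf
  obtain ⟨k, hk, hkA⟩ := exists_det_one hA h2 hf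
  refine ⟨z, 1, A ^ Fintype.card F * (A ^ Fintype.card F) ^ Fintype.card F, map_one _,
    ⟨g, (A ^ Fintype.card F) ^ Fintype.card F, hg, ⟨k, 1, hk, rfl, by rw [mul_one]; exact hkA⟩, by rw [← hgA]⟩, ?_⟩
  rw [one_mul, inv_one, mul_one, ← pow_mul, ← pow_add, ← pow_succ']
  rw [show Fintype.card F + Fintype.card F * Fintype.card F + 1 = 1 + Fintype.card F + Fintype.card F ^ 2 by ring]
  ext x
  have h4 := LinearMap.congr_fun hz x
  rw [← toLinearMap_pow] at h4
  exact h4.symm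

end irr

section unip

theorem isUnit_of {a : F} (h : a ≠ 0) : a⁻¹ * a = 1 := inv_mul_cancel₀ h

/-- upper unitriangular matrices -/
def um (a b c : F) : Matrix.SpecialLinearGroup (Fin 3) F :=
  ⟨!![1, a, c; 0, 1, b; 0, 0, 1], by simp [Matrix.det_fin_three]⟩

/-- diagonal matrices -/
noncomputable def dm (a : Fˣ) : Matrix.SpecialLinearGroup (Fin 3) F :=
  ⟨!![(a : F), 0, 0; 0, 1, 0; 0, 0, ((a⁻¹ : Fˣ) : F)], by simp [Matrix.det_fin_three]⟩

theorem um_mul (a b c a' b' c' : F) : um a b c * um a' b' c' = um (a + a') (b + b') (c + c' + a * b') := by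
  apply Subtype.ext
  ext i j
  show ((!![1, a, c; 0, 1, b; 0, 0, 1] : Matrix (Fin 3) (Fin 3) F) * !![1, a', c'; 0, 1, b'; 0, 0, 1]) i j =
    (!![1, a + a', c + c' + a * b'; 0, 1, b + b'; 0, 0, 1] : Matrix (Fin 3) (Fin 3) F) i j
  fin_cases i <;> fin_cases j <;> simp [Matrix.mul_apply, Fin.sum_univ_three]
  · ring
  · ring
  · ring

theorem um_zero : um (0 : F) 0 0 = 1 := by
  apply Subtype.ext
  ext i j
  fin_cases i <;> fin_cases j <;> simp [um]

theorem dm_conj (a : Fˣ) (x y c : F) : dm a * um x y c * (dm a)⁻¹ = um (a * x) (a * y) (a ^ 2 * c) := by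
  rw [mul_inv_eq_iff_eq_mul]
  apply Subtype.ext
  ext i j
  show ((!![(a : F), 0, 0; 0, 1, 0; 0, 0, ((a⁻¹ : Fˣ) : F)] : Matrix (Fin 3) (Fin 3) F) * !![1, x, c; 0, 1, y; 0, 0, 1]) i j =
    ((!![1, a * x, a ^ 2 * c; 0, 1, a * y; 0, 0, 1] : Matrix (Fin 3) (Fin 3) F) * !![(a : F), 0, 0; 0, 1, 0; 0, 0, ((a⁻¹ : Fˣ) : F)]) i j
  have ha : (a : F) ≠ 0 := a.ne_zero
  fin_cases i <;> fin_cases j <;> simp [Matrix.mul_apply, Fin.sum_univ_three]
  all_goals field_simp

theorem um_conj (t a b c : F) : um t 0 0 * um a b c * (um t 0 0)⁻¹ = um a b (c + t * b) := by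
  rw [mul_inv_eq_iff_eq_mul, um_mul, um_mul]
  congr 1 <;> ring

/-- three conjugates of a regular unipotent element with product 1 -/
theorem exists_three [Fintype F] (h4 : 4 ≤ Fintype.card F) : ∃ g₁ g₂ g₃ : Matrix.SpecialLinearGroup (Fin 3) F,
    g₁ * um (1 : F) 1 0 * g₁⁻¹ * (g₂ * um 1 1 0 * g₂⁻¹ * (g₃ * um 1 1 0 * g₃⁻¹)) = 1 := by
  classical
  obtain ⟨b, hb0, hb1⟩ : ∃ b : F, b ≠ 0 ∧ b ≠ -1 := by
    by_contra hcon
    push Not at hcon
    have h1 : (Finset.univ : Finset F) ⊆ {0, -1} := by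
      intro b _
      by_cases hb : b = 0
      · simp [hb]
      · simp [hcon b hb]
    have h2 := Finset.card_le_card h1
    have h3 := Finset.card_le_two (a := (0 : F)) (b := -1)
    rw [Finset.card_univ] at h2
    omega
  have hc : -(1 + b) ≠ 0 := by
    intro h
    apply hb1
    linear_combination -h
  let B : Fˣ := Units.mk0 b hb0
  let C' : Fˣ := Units.mk0 (-(1 + b)) hc
  let t : F := -((1 + b) * (-(1 + b)) + b) / (-(1 + b))
  refine ⟨1, dm B, um t 0 0 * dm C', ?_⟩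
  have e3 : um t 0 0 * dm C' * um 1 1 0 * (um t 0 0 * dm C')⁻¹ = um (-(1 + b)) (-(1 + b)) (t * (-(1 + b))) := by
    rw [mul_inv_rev]
    have : um t 0 0 * dm C' * um 1 1 0 * ((dm C')⁻¹ * (um t 0 0)⁻¹) = um t 0 0 * (dm C' * um 1 1 0 * (dm C')⁻¹) * (um t 0 0)⁻¹ := by group
    rw [this, dm_conj, um_conj]
    simp [C']
  rw [e3, dm_conj, one_mul, inv_one, mul_one, um_mul, um_mul, ← um_zero]
  have hB : (B : F) = b := rfl
  rw [hB]
  have ht : t * (-(1 + b)) = -((1 + b) * (-(1 + b)) + b) := div_mul_cancel₀ _ hc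
  rw [ht]
  congr 1 <;> ring

/-- the unipotent operator times a scalar -/
noncomputable def ub (l : Fˣ) : (Fin 3 → F) ≃ₗ[F] (Fin 3 → F) := sc (Fin 3 → F) l * Matrix.SpecialLinearGroup.toLin' (um (1 : F) 1 0)

theorem sc_comm {V : Type u} [AddCommGroup V] [Module F V] (l : Fˣ) (g : V ≃ₗ[F] V) : g * sc V l = sc V l * g := by
  ext x
  show g ((l : F) • x) = (l : F) • g x
  rw [map_smul]

theorem sc_mul {V : Type u} [AddCommGroup V] [Module F V] (l m : Fˣ) : sc V l * sc V m = sc V (l * m) := by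
  ext x
  show (l : F) • (m : F) • x = ((l * m : Fˣ) : F) • x
  rw [Units.val_mul, mul_smul]

theorem det_toLin' (g : Matrix.SpecialLinearGroup (Fin 3) F) : LinearEquiv.det (Matrix.SpecialLinearGroup.toLin' g) = 1 := by
  apply Units.ext
  rw [LinearEquiv.coe_det, Matrix.SpecialLinearGroup.toLin'_to_linearMap, LinearMap.det_toLin']
  exact g.2

theorem ip_ub [Fintype F] (h4 : 4 ≤ Fintype.card F) (l : Fˣ) : IP (ub l) [1, 1, 1] (sc (Fin 3 → F) (l * (l * l))) := by
  obtain ⟨g₁, g₂, g₃, h⟩ := exists_three (F := F) h4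
  refine ⟨Matrix.SpecialLinearGroup.toLin' g₁, _, det_toLin' g₁, ⟨Matrix.SpecialLinearGroup.toLin' g₂, _, det_toLin' g₂,
    ⟨Matrix.SpecialLinearGroup.toLin' g₃, 1, det_toLin' g₃, rfl, rfl⟩, rfl⟩, ?_⟩
  have hc : ∀ g : Matrix.SpecialLinearGroup (Fin 3) F, Matrix.SpecialLinearGroup.toLin' g * ub l * (Matrix.SpecialLinearGroup.toLin' g)⁻¹ =
      sc (Fin 3 → F) l * Matrix.SpecialLinearGroup.toLin' (g * um (1 : F) 1 0 * g⁻¹) := by
    intro g
    rw [ub, map_mul, map_mul, map_inv, ← mul_assoc, sc_comm]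
    group
  rw [hc, hc, hc, mul_one]
  have h2 : sc (Fin 3 → F) (l * (l * l)) * Matrix.SpecialLinearGroup.toLin'
      (g₁ * um (1 : F) 1 0 * g₁⁻¹ * (g₂ * um 1 1 0 * g₂⁻¹ * (g₃ * um 1 1 0 * g₃⁻¹))) =
      sc (Fin 3 → F) (l * (l * l)) * Matrix.SpecialLinearGroup.toLin' (1 : Matrix.SpecialLinearGroup (Fin 3) F) := by rw [h]
  rw [map_one, mul_one] at h2
  rw [← h2, map_mul _ _ (g₂ * um 1 1 0 * g₂⁻¹ * (g₃ * um 1 1 0 * g₃⁻¹)), map_mul _ (g₂ * um 1 1 0 * g₂⁻¹)]
  generalize Matrix.SpecialLinearGroup.toLin' (g₁ * um (1 : F) 1 0 * g₁⁻¹) = P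
  generalize Matrix.SpecialLinearGroup.toLin' (g₂ * um (1 : F) 1 0 * g₂⁻¹) = Q
  generalize Matrix.SpecialLinearGroup.toLin' (g₃ * um (1 : F) 1 0 * g₃⁻¹) = R
  rw [← sc_mul, ← sc_mul]
  calc sc (Fin 3 → F) l * (sc (Fin 3 → F) l * sc (Fin 3 → F) l) * (P * (Q * R)) =
      sc (Fin 3 → F) l * (sc (Fin 3 → F) l * (sc (Fin 3 → F) l * P) * Q * R) := by group
    _ = sc (Fin 3 → F) l * (sc (Fin 3 → F) l * (P * sc (Fin 3 → F) l) * Q * R) := by rw [sc_comm]
    _ = sc (Fin 3 → F) l * ((sc (Fin 3 → F) l * P) * (sc (Fin 3 → F) l * Q) * R) := by group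
    _ = sc (Fin 3 → F) l * ((P * sc (Fin 3 → F) l) * (Q * sc (Fin 3 → F) l) * R) := by rw [sc_comm, sc_comm]
    _ = sc (Fin 3 → F) l * P * (sc (Fin 3 → F) l * Q * (sc (Fin 3 → F) l * R)) := by group

theorem cyc_ub (l : Fˣ) : Cyc (ub l) ((X - C (l : F)) ^ 3) := by
  have hlin : (ub l).toLinearMap = Matrix.toLin' ((l : F) • !![1, 1, 0; 0, 1, 1; 0, 0, 1] : Matrix (Fin 3) (Fin 3) F) := by
    rw [map_smul]
    rfl
  refine ⟨(monic_X_sub_C _).pow 3, ?_, ⟨Pi.single 2 1, ?_⟩, ?_⟩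
  · rw [natDegree_pow, natDegree_X_sub_C, finrank_fin_fun]
  · intro W hW1 hW2
    rw [hlin] at hW2
    have h1 : (Pi.single 1 1 : Fin 3 → F) ∈ W := by
      have h := W.smul_mem ((l : F)⁻¹) (hW2 _ hW1)
      have h' := W.sub_mem h hW1
      convert h' using 1
      ext i
      have hl := l.ne_zero
      fin_cases i <;> simp [Matrix.toLin'_apply, Matrix.mulVec, dotProduct, Fin.sum_univ_three, Pi.single_apply]
    have h0 : (Pi.single 0 1 : Fin 3 → F) ∈ W := by
      have h := W.smul_mem ((l : F)⁻¹) (hW2 _ h1)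
      have h' := W.sub_mem h h1
      convert h' using 1
      ext i
      have hl := l.ne_zero
      fin_cases i <;> simp [Matrix.toLin'_apply, Matrix.mulVec, dotProduct, Fin.sum_univ_three, Pi.single_apply]
    rw [eq_top_iff]
    intro x _
    have : x = x 0 • (Pi.single 0 1 : Fin 3 → F) + x 1 • (Pi.single 1 1 : Fin 3 → F) + x 2 • (Pi.single 2 1 : Fin 3 → F) := by
      ext i
      fin_cases i <;> simp [Pi.single_apply]
    rw [this]
    exact W.add_mem (W.add_mem (W.smul_mem _ h0) (W.smul_mem _ h1)) (W.smul_mem _ hW1)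
  · rw [hlin, toLin'_aeval, map_pow, map_sub, aeval_X, aeval_C]
    rw [LinearEquiv.map_eq_zero_iff]
    ext i j
    rw [Algebra.algebraMap_eq_smul_one]
    fin_cases i <;> fin_cases j <;> simp [pow_succ, Matrix.mul_apply, Fin.sum_univ_three]

end unip

section main

variable {V : Type u} [AddCommGroup V] [Module F V] [FiniteDimensional F V]

theorem n3_sr (h3 : finrank F V = 3) {A : V ≃ₗ[F] V} {p : F[X]} (hA : Cyc A p) (hp : SR p) (hd : LinearEquiv.det A = 1) :
    IP A [1, 1, 1] 1 := by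
  obtain ⟨q, hq, hsr⟩ := hA.inv
  have h1 : WP A 2 A⁻¹ := CovSTAR.cycW (by omega) le_rfl hA hq (hsr hp) (by rw [map_inv, hd]; simp)
  have h2 : WP A (1 + 2) (A * A⁻¹) := (WP.one A).mul h1
  rw [mul_inv_cancel] at h2
  exact (WP.sp_of_full (Full.of_sr hA hp) h2) [1, 1, 1] rfl

theorem N3 [Fintype F] (h4 : 4 ≤ Fintype.card F) (h3 : finrank F V = 3) {A : V ≃ₗ[F] V} {p : F[X]}
    (hA : Cyc A p) (hd : LinearEquiv.det A = 1) :
    ∃ z : Fˣ, IP A [1, 1, 1] (sc V z) := by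
  by_cases hsr : SR p
  · refine ⟨1, ?_⟩
    have h1 : sc V (1 : Fˣ) = 1 := by
      ext x
      show ((1 : Fˣ) : F) • x = x
      simp
    rw [h1]
    exact n3_sr h3 hA hsr hd
  by_cases hirr : Irreducible p
  · exact n3_irr h3 hA hirr
  have hm := hA.1
  have hdeg : p.natDegree = 3 := by rw [hA.2.1, h3]
  have hroots : p.roots ≠ 0 := by
    intro h
    exact hirr ((hm.irreducible_iff_roots_eq_zero_of_degree_le_three (by omega) (by omega)).2 h)
  obtain ⟨l, hl⟩ := Multiset.exists_mem_of_ne_zero hroots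
  rw [mem_roots hm.ne_zero] at hl
  obtain ⟨h, hh⟩ := dvd_iff_isRoot.2 hl
  have hhm : h.Monic := (monic_X_sub_C l).of_mul_monic_left (by rw [← hh]; exact hm)
  have hhd : h.natDegree = 2 := by
    have := (monic_X_sub_C l).natDegree_mul hhm
    rw [← hh, hdeg, natDegree_X_sub_C] at this
    omega
  have hhl : h.eval l = 0 := by
    by_contra hne
    exact hsr ⟨l, h, by rw [hh, mul_comm], hne⟩
  obtain ⟨k, hk⟩ := dvd_iff_isRoot.2 hhl
  have hkm : k.Monic := (monic_X_sub_C l).of_mul_monic_left (by rw [← hk]; exact hhm)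
  have hkd : k.natDegree = 1 := by
    have := (monic_X_sub_C l).natDegree_mul hkm
    rw [← hk, hhd, natDegree_X_sub_C] at this
    omega
  have hk1 := hkm.eq_X_add_C hkd
  set m := k.coeff 0 with hmdef
  have hml : m = -l := by
    by_contra hne
    apply hsr
    refine ⟨-m, (X - C l) * (X - C l), ?_, ?_⟩
    · rw [hh, hk, hk1, map_neg, sub_neg_eq_add, mul_assoc]
    · rw [eval_mul, eval_sub, eval_X, eval_C]
      have : -m - l ≠ 0 := fun h => hne (by linear_combination -h)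
      exact mul_ne_zero this this
  have hp : p = (X - C l) ^ 3 := by
    rw [hh, hk, hk1, hml, map_neg]; ring
  have hl0 : l ≠ 0 := by
    rintro rfl
    have := hA.det
    rw [hd, hp] at this
    simp at this
  have hB := cyc_ub (Units.mk0 l hl0)
  rw [Units.val_mk0, ← hp] at hB
  obtain ⟨e, he⟩ := hB.sim hA
  refine ⟨Units.mk0 l hl0 * (Units.mk0 l hl0 * Units.mk0 l hl0), ?_⟩
  have h5 := (ip_ub h4 (Units.mk0 l hl0)).of_sim e he
  convert h5 using 1
  ext x
  show (_ : F) • x = e ((_ : F) • (e.symm x))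
  rw [map_smul, LinearEquiv.apply_symm_apply]

end main

end Cfsg.Agent.Lib.CovN3
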