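import Mathlib
import Cfsg.Agent.Lib.CovBas3

set_option autoImplicit false

namespace Cfsg.Agent.Lib.CovPSL

open Module Polynomial Cfsg.Agent.Lib.CyclicProd Cfsg.Agent.Lib.CovDefs

universe u

variable {F : Type u} [Field F] {n : ℕ}

theorem exists_sl (e : (Fin n → F) ≃ₗ[F] (Fin n → F)) (he : LinearEquiv.det e = 1) :
    ∃ S : Matrix.SpecialLinearGroup (Fin n) F, Matrix.SpecialLinearGroup.toLin' S = e := by
  have hd : (LinearMap.toMatrix' e.toLinearMap).det = 1 := by
    rw [LinearMap.det_toMatrix', ← LinearEquiv.coe_det, he, Units.val_one]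
  let S : Matrix.SpecialLinearGroup (Fin n) F := ⟨LinearMap.toMatrix' e.toLinearMap, hd⟩
  refine ⟨S, ?_⟩
  apply LinearEquiv.toLinearMap_injective
  rw [Matrix.SpecialLinearGroup.toLin'_to_linearMap]
  exact Matrix.toLin'_toMatrix' _

theorem det_toLin' (A : Matrix.SpecialLinearGroup (Fin n) F) :
    LinearEquiv.det (Matrix.SpecialLinearGroup.toLin' A) = 1 := by
  apply Units.ext
  rw [LinearEquiv.coe_det, Matrix.SpecialLinearGroup.toLin'_to_linearMap, LinearMap.det_toLin',
    A.det_coe, Units.val_one]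

theorem ip_sl (A : Matrix.SpecialLinearGroup (Fin n) F) (k : ℕ) :
    ∀ (M : (Fin n → F) ≃ₗ[F] (Fin n → F)),
      IP (Matrix.SpecialLinearGroup.toLin' A) (List.replicate k 1) M →
      ∃ f : Fin k → Matrix.SpecialLinearGroup (Fin n) F,
        M = Matrix.SpecialLinearGroup.toLin' ((List.ofFn fun i => f i * A * (f i)⁻¹).prod) := by
  induction k with
  | zero =>
    intro M h
    have h : M = 1 := h
    refine ⟨fun i => i.elim0, ?_⟩
    rw [h]
    simp
  | succ k ih =>
    intro M h
    rw [List.replicate_succ] at h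
    obtain ⟨g, P, hg, hP, rfl⟩ := h
    obtain ⟨f, rfl⟩ := ih P hP
    obtain ⟨S, rfl⟩ := exists_sl g hg
    refine ⟨Fin.cons S f, ?_⟩
    rw [List.ofFn_succ, List.prod_cons, map_mul, map_mul, map_mul, map_inv]
    rfl

theorem mem_center_of_sc {S : Matrix.SpecialLinearGroup (Fin n) F} {z : Fˣ}
    (h : Matrix.SpecialLinearGroup.toLin' S = sc (Fin n → F) z) :
    S ∈ Subgroup.center (Matrix.SpecialLinearGroup (Fin n) F) := by
  rw [Subgroup.mem_center_iff]
  intro T
  apply Matrix.SpecialLinearGroup.toLin'_injective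
  rw [map_mul, map_mul, h]
  apply LinearEquiv.ext
  intro x
  change Matrix.SpecialLinearGroup.toLin' T (z • x) = z • Matrix.SpecialLinearGroup.toLin' T x
  rw [Units.smul_def, map_smul]; rfl

theorem ns_of_not_center {A : Matrix.SpecialLinearGroup (Fin n) F}
    (hA : A ∉ Subgroup.center (Matrix.SpecialLinearGroup (Fin n) F)) :
    NS (Matrix.SpecialLinearGroup.toLin' A) := by
  obtain ⟨u, hu⟩ := exists_not_eigenvector A hA
  exact ⟨u, fun c hc => hu c hc⟩

/-- transfer to `PSL`. -/
theorem psl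
    (final : ∀ A : (Fin n → F) ≃ₗ[F] (Fin n → F), NS A → LinearEquiv.det A = 1 →
      (∀ M : (Fin n → F) ≃ₗ[F] (Fin n → F), NS M → LinearEquiv.det M = 1 →
        IP A (List.replicate n 1) M) ∧
      ∃ z : Fˣ, IP A (List.replicate n 1) (sc (Fin n → F) z))
    (x : Matrix.ProjectiveSpecialLinearGroup (Fin n) F) (hx : x ≠ 1)
    (g : Matrix.ProjectiveSpecialLinearGroup (Fin n) F) :
    ∃ f : Fin n → Matrix.ProjectiveSpecialLinearGroup (Fin n) F,
      g = (List.ofFn fun i => f i * x * (f i)⁻¹).prod := by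
  obtain ⟨A, rfl⟩ := QuotientGroup.mk_surjective x
  obtain ⟨B, rfl⟩ := QuotientGroup.mk_surjective g
  have hA : A ∉ Subgroup.center (Matrix.SpecialLinearGroup (Fin n) F) := by
    intro h
    exact hx ((QuotientGroup.eq_one_iff A).2 h)
  obtain ⟨h1, z, h2⟩ := final _ (ns_of_not_center hA) (det_toLin' A)
  -- reduce to `SL`
  have key : ∀ f : Fin n → Matrix.SpecialLinearGroup (Fin n) F,
      ((QuotientGroup.mk ((List.ofFn fun i => f i * A * (f i)⁻¹).prod) :
        Matrix.ProjectiveSpecialLinearGroup (Fin n) F)) =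
      (List.ofFn fun i => (QuotientGroup.mk (f i) : Matrix.ProjectiveSpecialLinearGroup (Fin n) F) *
        QuotientGroup.mk A * (QuotientGroup.mk (f i))⁻¹).prod := by
    intro f
    have := map_list_prod (QuotientGroup.mk' (Subgroup.center
      (Matrix.SpecialLinearGroup (Fin n) F))) (List.ofFn fun i => f i * A * (f i)⁻¹)
    rw [List.map_ofFn] at this
    exact this
  by_cases hB : B ∈ Subgroup.center (Matrix.SpecialLinearGroup (Fin n) F)
  · obtain ⟨f, hf⟩ := ip_sl A n _ h2
    refine ⟨fun i => QuotientGroup.mk (f i), ?_⟩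
    rw [← key f]
    have h3 := mem_center_of_sc hf.symm
    rw [(QuotientGroup.eq_one_iff _).2 h3]
    exact (QuotientGroup.eq_one_iff B).2 hB
  · obtain ⟨f, hf⟩ := ip_sl A n _ (h1 _ (ns_of_not_center hB) (det_toLin' B))
    refine ⟨fun i => QuotientGroup.mk (f i), ?_⟩
    rw [← key f]
    congr 1
    exact Matrix.SpecialLinearGroup.toLin'_injective hf

end Cfsg.Agent.Lib.CovPSL
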