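import Mathlib
import Cfsg.Agent.Lib.SchurPerfect
import Cfsg.Agent.Lib.ClSLn
import Cfsg.Agent.Lib.ClUtil
import Cfsg.Agent.S2117

/-! Perfect central extensions of `PSL(2,13)` (piece S of S4233, for helper68). -/

set_option autoImplicit false
set_option linter.all false
open Cfsg Matrix Subgroup
open scoped commutatorElement

namespace Cfsg.Agent.Lib.Cover13

universe u

/-- SL(2,p) is perfect for p ≥ 5 -/
theorem two13 : (2 : ZMod 13) ≠ 0 ∧ (2 : ZMod 13) ^ 2 ≠ 1 := by decide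

theorem commutator_SL : commutator (SpecialLinearGroup (Fin 2) (ZMod 13)) = ⊤ := by
  have : Fact (Nat.Prime 13) := ⟨by norm_num⟩
  have h2 : Fact (2 ≤ 2) := ⟨le_refl _⟩
  refine Cfsg.Agent.Lib.ClSLn.commutator_SL_eq_top' (fun h => ?_)
  exact ⟨2, two13.1, two13.2⟩

theorem card_center : Nat.card (Subgroup.center (SpecialLinearGroup (Fin 2) (ZMod 13))) = 2 := by
  have : Fact (Nat.Prime 13) := ⟨by norm_num⟩
  rw [Nat.card_congr (Matrix.SpecialLinearGroup.center_equiv_rootsOfUnity (n := Fin 2) (R := ZMod 13)).toEquiv,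
    Fintype.card_fin, max_eq_left (by omega)]
  have := Cfsg.Agent.Lib.ClUtil.card_rootsOfUnity' (F := ZMod 13) (q := 13) (ZMod.card 13) 2
  rw [this]
  norm_num

theorem aux {X : Type} [Group X] [Finite X] (hperf : commutator X = ⊤)
    (ξ : X →* Matrix.ProjectiveSpecialLinearGroup (Fin 2) (ZMod 13)) (hs : Function.Surjective ξ)
    (hc : ξ.ker ≤ Subgroup.center X) :
    (ξ.ker = ⊥ ∧ Nonempty (X ≃* Matrix.ProjectiveSpecialLinearGroup (Fin 2) (ZMod 13))) ∨
      (Nat.card ξ.ker = 2 ∧ Nonempty (X ≃* Matrix.SpecialLinearGroup (Fin 2) (ZMod 13))) := by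
  have : Fact (Nat.Prime 13) := ⟨by norm_num⟩
  let π : SpecialLinearGroup (Fin 2) (ZMod 13) →* Matrix.ProjectiveSpecialLinearGroup (Fin 2) (ZMod 13) :=
    QuotientGroup.mk' (Subgroup.center (SpecialLinearGroup (Fin 2) (ZMod 13)))
  have hπ : Function.Surjective π := QuotientGroup.mk'_surjective _
  have hker : π.ker = Subgroup.center (SpecialLinearGroup (Fin 2) (ZMod 13)) := QuotientGroup.ker_mk' _
  have hSLp : Group.IsPerfect (SpecialLinearGroup (Fin 2) (ZMod 13)) := ⟨commutator_SL⟩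
  have hmult : Cfsg.HasCyclicSchurMultiplier (SpecialLinearGroup (Fin 2) (ZMod 13)) 1 :=
    Cfsg.Agent.S2117.result (F := ZMod 13) (by rw [ZMod.card]; omega) (by rw [ZMod.card]; omega)
  obtain ⟨η, hη⟩ := (Cfsg.Agent.Lib.SchurPerfect.universal_iff hSLp π hπ hker.le).2 hmult X ξ hs hc
  have hηs : Function.Surjective η := by
    rw [← MonoidHom.range_eq_top, eq_top_iff, ← hperf, commutator_def]
    have hsup : ∀ x : X, ∃ r ∈ η.range, ∃ z ∈ Subgroup.center X, x = r * z := by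
      intro x
      obtain ⟨y, hy⟩ := hπ (ξ x)
      refine ⟨η y, ⟨y, rfl⟩, (η y)⁻¹ * x, hc ?_, by group⟩
      rw [MonoidHom.mem_ker, map_mul, map_inv]
      have : ξ (η y) = π y := by rw [← hη]; rfl
      rw [this, hy, inv_mul_cancel]
    rw [Subgroup.commutator_le]
    intro x _ y _
    obtain ⟨r, hr, z, hz, rfl⟩ := hsup x
    obtain ⟨r', hr', z', hz', rfl⟩ := hsup y
    have h1 : ⁅r * z, r' * z'⁆ = ⁅r, r'⁆ := by
      rw [Subgroup.mem_center_iff] at hz hz'
      simp only [commutatorElement_def]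
      have e1 := hz r'
      have e2 := hz' r
      have e3 := hz' r⁻¹
      have e4 := hz z'
      calc r * z * (r' * z') * (r * z)⁻¹ * (r' * z')⁻¹ = r * (z * r') * z' * z⁻¹ * r⁻¹ * z'⁻¹ * r'⁻¹ := by group
        _ = r * (r' * z) * z' * z⁻¹ * r⁻¹ * z'⁻¹ * r'⁻¹ := by rw [← hz r']
        _ = r * r' * (z * z') * z⁻¹ * r⁻¹ * z'⁻¹ * r'⁻¹ := by group
        _ = r * r' * (z' * z) * z⁻¹ * r⁻¹ * z'⁻¹ * r'⁻¹ := by rw [← hz z']
        _ = r * r' * (z' * r⁻¹) * z'⁻¹ * r'⁻¹ := by group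
        _ = r * r' * (r⁻¹ * z') * z'⁻¹ * r'⁻¹ := by rw [← hz' r⁻¹]
        _ = r * r' * r⁻¹ * r'⁻¹ := by group
    rw [h1]
    simp only [commutatorElement_def]
    exact mul_mem (mul_mem (mul_mem hr hr') (inv_mem hr)) (inv_mem hr')
  have hkη : η.ker ≤ π.ker := by
    intro y hy
    rw [MonoidHom.mem_ker] at hy ⊢
    rw [← hη, MonoidHom.comp_apply, hy, map_one]
  have hcπ : Nat.card π.ker = 2 := by rw [hker]; exact card_center
  have hdvd := Subgroup.card_dvd_of_le hkη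
  rw [hcπ] at hdvd
  have hmapker : ξ.ker = π.ker.map η := by
    ext x
    rw [MonoidHom.mem_ker, Subgroup.mem_map]
    constructor
    · intro hx
      obtain ⟨y, rfl⟩ := hηs x
      refine ⟨y, ?_, rfl⟩
      rw [MonoidHom.mem_ker, ← hη, MonoidHom.comp_apply, hx]
    · rintro ⟨y, hy, rfl⟩
      rw [MonoidHom.mem_ker, ← hη, MonoidHom.comp_apply] at hy
      exact hy
  rcases (Nat.dvd_prime Nat.prime_two).1 hdvd with h1 | h1
  · right
    have hinj : Function.Injective η := by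
      rw [← MonoidHom.ker_eq_bot_iff]
      exact Subgroup.card_eq_one.1 h1
    refine ⟨?_, ⟨(MulEquiv.ofBijective η ⟨hinj, hηs⟩).symm⟩⟩
    rw [hmapker, Subgroup.card_map_of_injective hinj, hcπ]
  · left
    have heq : η.ker = π.ker := Subgroup.eq_of_le_of_card_ge hkη (by rw [hcπ, h1])
    have hbot : ξ.ker = ⊥ := by
      rw [hmapker, ← heq, eq_bot_iff]
      rintro x ⟨y, hy, rfl⟩
      exact hy
    refine ⟨hbot, ⟨MulEquiv.ofBijective ξ ⟨(MonoidHom.ker_eq_bot_iff ξ).1 hbot, hs⟩⟩⟩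

theorem cover13 {X : Type*} [Group X] [Finite X] (hperf : commutator X = ⊤) (Z : Subgroup X) [Z.Normal]
    (hZ : Z ≤ Subgroup.center X)
    (e : Nonempty (X ⧸ Z ≃* Matrix.ProjectiveSpecialLinearGroup (Fin 2) (ZMod 13))) :
    (Z = ⊥ ∧ Nonempty (X ≃* Matrix.ProjectiveSpecialLinearGroup (Fin 2) (ZMod 13))) ∨
      (Nat.card Z = 2 ∧ Nonempty (X ≃* Matrix.SpecialLinearGroup (Fin 2) (ZMod 13))) := by
  obtain ⟨e⟩ := e
  let f : Shrink.{0} X ≃* X := Shrink.mulEquiv
  have : Finite (Shrink.{0} X) := Finite.of_equiv X f.symm.toEquiv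
  have hp : commutator (Shrink.{0} X) = ⊤ := by
    have h1 := Subgroup.map_commutator (⊤ : Subgroup X) ⊤ f.symm.toMonoidHom
    rw [← commutator_def, hperf] at h1
    have h2 : (⊤ : Subgroup X).map f.symm.toMonoidHom = ⊤ :=
      Subgroup.map_top_of_surjective _ f.symm.surjective
    rw [h2] at h1
    rw [commutator_def, ← h1]
  let ξ : Shrink.{0} X →* Matrix.ProjectiveSpecialLinearGroup (Fin 2) (ZMod 13) :=
    e.toMonoidHom.comp ((QuotientGroup.mk' Z).comp f.toMonoidHom)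
  have hmem : ∀ y, y ∈ ξ.ker ↔ f y ∈ Z := by
    intro y
    rw [MonoidHom.mem_ker]
    change e (QuotientGroup.mk' Z (f y)) = 1 ↔ _
    rw [EmbeddingLike.map_eq_one_iff, QuotientGroup.mk'_apply, QuotientGroup.eq_one_iff]
  have hs : Function.Surjective ξ :=
    e.surjective.comp ((QuotientGroup.mk'_surjective Z).comp f.surjective)
  have hc : ξ.ker ≤ Subgroup.center (Shrink.{0} X) := by
    intro y hy
    have h1 := hZ ((hmem y).1 hy)
    rw [Subgroup.mem_center_iff] at h1 ⊢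
    intro g
    apply f.injective
    rw [map_mul, map_mul]
    exact h1 (f g)
  have hmap : Z = ξ.ker.map f.toMonoidHom := by
    ext x
    rw [Subgroup.mem_map]
    constructor
    · intro hx
      exact ⟨f.symm x, (hmem _).2 (by rw [MulEquiv.apply_symm_apply]; exact hx), by simp⟩
    · rintro ⟨y, hy, rfl⟩
      exact (hmem y).1 hy
  rcases aux hp ξ hs hc with ⟨h1, ⟨h2⟩⟩ | ⟨h1, ⟨h2⟩⟩
  · left
    refine ⟨?_, ⟨f.symm.trans h2⟩⟩
    rw [hmap, h1, Subgroup.map_bot]
  · right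
    refine ⟨?_, ⟨f.symm.trans h2⟩⟩
    rw [hmap, Subgroup.card_map_of_injective f.injective, h1]

end Cfsg.Agent.Lib.Cover13
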