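import Cfsg.Agent.Lib.GlaubCorrCount
import Cfsg.Agent.Lib.CoprimeAction
import Cfsg.Agent.Lib.ConjCover
import Cfsg.Agent.Lib.Clifford

/-!
# Coprime action of a `p`-group and a `q`-group: invariant characters (helper95)
-/

set_option autoImplicit false

namespace Cfsg.Agent.Lib.CrossCop

open Subgroup Cfsg Cfsg.Agent.Lib Cfsg.Agent.Lib.SubgroupTools Cfsg.Agent.Lib.Clifford
open scoped Pointwise

universe u

/-- the group with the conjugation action of itself -/
@[ext] structure Cj (G : Type u) : Type u where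
  /-- the element -/
  val : G

instance {G : Type u} [Group G] : MulAction G (Cj G) where
  smul g x := ⟨g * x.val * g⁻¹⟩
  one_smul x := by
    apply Cj.ext
    show (1 : G) * x.val * (1 : G)⁻¹ = x.val
    simp
  mul_smul g h x := by
    apply Cj.ext
    show ((g * h) * x.val * (g * h)⁻¹ : G) = g * (h * x.val * h⁻¹) * g⁻¹
    group

theorem Cj.val_smul {G : Type u} [Group G] (g : G) (x : Cj G) : (g • x).val = g * x.val * g⁻¹ := rfl

variable {G : Type u} [Group G] [Finite G]

/-- If a group `A` acts coprimely on `N`, `B ≤ A`, and every `B`-invariant irreducible character of `N` is `A`-invariant,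
then `C_N(B) = C_N(A)`. -/
theorem centralizer_le {A B N : Subgroup G} [hN : N.Normal] (hBA : B ≤ A) (hsolv : Group.IsSolvable A)
    (hcop : (Nat.card N).Coprime (Nat.card A))
    (h : ∀ θ : IrrCharacter N, (∀ x ∈ B, cj N x (θ : N → ℂ) = θ) → ∀ x ∈ A, cj N x (θ : N → ℂ) = θ) :
    N ⊓ centralizer (B : Set G) ≤ centralizer (A : Set G) := by
  classical
  have hsolvB : Group.IsSolvable B := isSolvable_of_le hBA hsolv
  have hcopB : (Nat.card N).Coprime (Nat.card B) :=
    Nat.Coprime.coprime_dvd_right (Subgroup.card_dvd_of_le hBA) hcop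
  let φ : G →* MulAut N := MulAut.conjNormal
  have hinv : ∀ (X : Subgroup G) (θ : IrrCharacter N),
      (∀ s ∈ X.map φ, ∀ g, (θ : N → ℂ) (s g) = (θ : N → ℂ) g) ↔ ∀ x ∈ X, cj N x (θ : N → ℂ) = θ := by
    intro X θ
    constructor
    · intro h x hx
      rw [cj_eq_comp]
      funext n
      exact h _ (mem_map_of_mem φ hx) n
    · rintro h _ ⟨x, hx, rfl⟩ n
      have := congrFun (h x hx) n
      rw [cj_eq_comp] at this
      exact this
  have hcA := GlaubCorr.count _ (A.map φ) rfl (isSolvable_map φ hsolv)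
    (Nat.Coprime.coprime_dvd_right (Subgroup.card_map_dvd A φ) hcop)
  have hcB := GlaubCorr.count _ (B.map φ) rfl (isSolvable_map φ hsolvB)
    (Nat.Coprime.coprime_dvd_right (Subgroup.card_map_dvd B φ) hcopB)
  have hAB : ∀ θ : IrrCharacter N, (∀ s ∈ A.map φ, ∀ g, (θ : N → ℂ) (s g) = (θ : N → ℂ) g) ↔
      (∀ s ∈ B.map φ, ∀ g, (θ : N → ℂ) (s g) = (θ : N → ℂ) g) := by
    intro θ
    constructor
    · intro h s hs g
      exact h s (map_mono hBA hs) g
    · intro h1
      rw [hinv] at h1 ⊢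
      exact h θ h1
  have hcard : Nat.card {K : ConjClasses N // ∀ s ∈ A.map φ, ∀ g, ConjClasses.mk g = K → ConjClasses.mk (s g) = K} =
      Nat.card {K : ConjClasses N // ∀ s ∈ B.map φ, ∀ g, ConjClasses.mk g = K → ConjClasses.mk (s g) = K} := by
    rw [← hcA, ← hcB]
    exact Nat.card_congr (Equiv.subtypeEquivRight hAB)
  -- every `B`-invariant class is `A`-invariant
  have hcl : ∀ K : ConjClasses N, (∀ s ∈ B.map φ, ∀ g, ConjClasses.mk g = K → ConjClasses.mk (s g) = K) →
      (∀ s ∈ A.map φ, ∀ g, ConjClasses.mk g = K → ConjClasses.mk (s g) = K) := by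
    have hsub : {K : ConjClasses N | ∀ s ∈ A.map φ, ∀ g, ConjClasses.mk g = K → ConjClasses.mk (s g) = K} ⊆
        {K : ConjClasses N | ∀ s ∈ B.map φ, ∀ g, ConjClasses.mk g = K → ConjClasses.mk (s g) = K} := by
      intro K hK s hs
      exact hK s (map_mono hBA hs)
    have heq := Set.eq_of_subset_of_ncard_le hsub (by
      rw [← Nat.card_coe_set_eq, ← Nat.card_coe_set_eq]
      exact hcard.symm.le) (Set.toFinite _)
    intro K hK
    have : K ∈ {K : ConjClasses N | ∀ s ∈ A.map φ, ∀ g, ConjClasses.mk g = K → ConjClasses.mk (s g) = K} := by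
      rw [heq]; exact hK
    exact this
  have htop : ((N ⊓ centralizer (A : Set G)).subgroupOf (N ⊓ centralizer (B : Set G))) = ⊤ := by
    apply ConjCover.eq_top_of_forall_conj
    rintro ⟨c, hc⟩
    obtain ⟨hcN, hcB'⟩ := mem_inf.mp hc
    have hcfix : ∀ b ∈ B, b * c * b⁻¹ = c := by
      intro b hb
      rw [mem_centralizer_iff.mp hcB' b hb, mul_inv_cancel_right]
    -- the class of `c` is `A`-invariant
    have h1 := hcl (ConjClasses.mk ⟨c, hcN⟩) (by
      rintro _ ⟨b, hb, rfl⟩ g hg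
      rw [ConjClasses.mk_eq_mk_iff_isConj] at hg ⊢
      have h2 := (φ b).toMonoidHom.map_isConj hg
      have h3 : (φ b).toMonoidHom ⟨c, hcN⟩ = ⟨c, hcN⟩ := Subtype.ext (hcfix b hb)
      rwa [h3] at h2)
    have hAN : A ≤ normalizer (N : Set G) := le_normalizer_of_normal
    have hBN : B ≤ normalizer (N : Set G) := le_normalizer_of_normal
    obtain ⟨n, hn, hfix⟩ := CoprimeAction.exists_fixed_point (X := Cj G) hAN hcop.symm (Or.inl hsolv) ⟨c⟩ (by
      intro a ha
      have h2 := h1 _ (mem_map_of_mem φ ha) ⟨c, hcN⟩ rfl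
      rw [ConjClasses.mk_eq_mk_iff_isConj] at h2
      obtain ⟨k, hk⟩ := isConj_iff.mp h2.symm
      refine ⟨k, k.2, ?_⟩
      have := congrArg (fun y : N => (y : G)) hk
      apply Cj.ext
      exact this.symm)
    obtain ⟨y, hy, hyc⟩ := CoprimeAction.exists_smul_eq_of_fixed (X := Cj G) hBN hcopB.symm (Or.inl hsolvB)
      (x := ⟨c⟩) (y := n • (⟨c⟩ : Cj G)) (fun b hb => Cj.ext (hcfix b hb)) (fun b hb => hfix b (hBA hb)) ⟨n, hn, rfl⟩
    refine ⟨⟨y, hy⟩⁻¹, ?_⟩
    rw [inv_inv, mem_subgroupOf]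
    change y * c * y⁻¹ ∈ N ⊓ centralizer (A : Set G)
    have h3 : y * c * y⁻¹ = n * c * n⁻¹ := congrArg Cj.val hyc
    rw [h3]
    refine mem_inf.mpr ⟨hN.conj_mem c hcN n, ?_⟩
    rw [mem_centralizer_iff]
    intro a ha
    have h4 : a * (n * c * n⁻¹) * a⁻¹ = n * c * n⁻¹ := congrArg Cj.val (hfix a ha)
    calc a * (n * c * n⁻¹) = (a * (n * c * n⁻¹) * a⁻¹) * a := by group
      _ = n * c * n⁻¹ * a := by rw [h4]
  intro c hc
  have h1 : (⟨c, hc⟩ : (N ⊓ centralizer (B : Set G) : Subgroup G)) ∈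
      ((N ⊓ centralizer (A : Set G)).subgroupOf (N ⊓ centralizer (B : Set G))) := by rw [htop]; trivial
  rw [mem_subgroupOf] at h1
  exact (mem_inf.mp h1).2

end Cfsg.Agent.Lib.CrossCop
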