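import Cfsg.Agent.Lib.PSolvTools
import Cfsg.Agent.Lib.H32PSolv
import Cfsg.Agent.Lib.Burnside
import Cfsg.Agent.Lib.SubgroupTools

/-!
# Hall `{p, q}`-subgroups of groups which are `p`-soluble and `q`-soluble (helper95)
-/

set_option autoImplicit false

namespace Cfsg.Agent.Lib.CrossHall

open Subgroup Cfsg Cfsg.Agent.Lib Cfsg.Agent.Lib.HallPi Cfsg.Agent.Lib.SubgroupTools
open scoped Pointwise

universe u

variable {G : Type u} [Group G] [Finite G]

omit [Finite G] in
/-- between two normal subgroups there is one with `q`- or `q'`-quotient -/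
theorem exists_step_le {q : ℕ} [Fact q.Prime] (h : IsPSolvable q G) (N M : Subgroup G) [hN : N.Normal]
    [hM : M.Normal] (hNM : N < M) : ∃ L : Subgroup G, L.Normal ∧ N < L ∧ L ≤ M ∧
      ((∃ k, N.relIndex L ∣ q ^ k) ∨ (N.relIndex L).Coprime q) := by
  obtain ⟨n, H, h0, hlast, hmono, hnorm, hstep⟩ := h
  obtain ⟨i, hi1, hi2⟩ : ∃ i : Fin n, M ⊓ H i.castSucc ≤ N ∧ ¬ M ⊓ H i.succ ≤ N := by
    by_contra hcon
    push Not at hcon
    have hall : ∀ i : Fin (n + 1), M ⊓ H i ≤ N := by
      intro i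
      induction i using Fin.induction with
      | zero => rw [h0, inf_bot_eq]; exact bot_le
      | succ i ih => exact hcon i ih
    have h1 := hall (Fin.last n)
    rw [hlast, inf_top_eq] at h1
    exact absurd h1 (not_le_of_gt hNM)
  have := hnorm i.succ
  have := hnorm i.castSucc
  refine ⟨N ⊔ (M ⊓ H i.succ), inferInstance, lt_of_le_of_ne le_sup_left ?_, sup_le hNM.le inf_le_left, ?_⟩
  · intro he
    apply hi2
    rw [he]; exact le_sup_right
  · have h1 : N.relIndex (N ⊔ (M ⊓ H i.succ)) ∣ (H i.castSucc).relIndex (H i.succ) := by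
      rw [Subgroup.relIndex_sup_left]
      refine (Subgroup.relIndex_dvd_of_le_left _ hi1).trans ?_
      rw [← Subgroup.inf_relIndex_right (M ⊓ H i.castSucc) (M ⊓ H i.succ)]
      have h2 : M ⊓ H i.castSucc ⊓ (M ⊓ H i.succ) = H i.castSucc ⊓ (M ⊓ H i.succ) := by
        apply le_antisymm
        · exact le_inf (inf_le_left.trans inf_le_right) inf_le_right
        · exact le_inf (le_inf (inf_le_right.trans inf_le_left) inf_le_left) inf_le_right
      rw [h2, Subgroup.inf_relIndex_right]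
      exact H32PSolv.relIndex_dvd_of_normal (H i.castSucc) inf_le_right
    rcases hstep i with ⟨m, hm⟩ | hc
    · left
      exact ⟨m, hm ▸ h1⟩
    · right
      exact Nat.Coprime.coprime_dvd_left h1 hc

/-- the pair of primes -/
theorem piNum_pair {p q n : ℕ} (hp : p.Prime) (hq : q.Prime) (h : (∃ k, n ∣ p ^ k) ∨ (∃ k, n ∣ q ^ k)) :
    PiNum ({p, q} : Set ℕ) n := by
  intro r hr hrn
  rcases h with ⟨k, hk⟩ | ⟨k, hk⟩
  · left
    exact (Nat.prime_dvd_prime_iff_eq hr hp).mp (hr.dvd_of_dvd_pow (hrn.trans hk))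
  · right
    exact (Nat.prime_dvd_prime_iff_eq hr hq).mp (hr.dvd_of_dvd_pow (hrn.trans hk))

theorem piNum_compl_pair {p q n : ℕ} (h1 : ¬ p ∣ n) (h2 : ¬ q ∣ n) :
    PiNum ({p, q} : Set ℕ)ᶜ n := by
  intro r hr hrn hmem
  rcases hmem with rfl | hmem
  · exact h1 hrn
  · rw [Set.mem_singleton_iff] at hmem
    rw [hmem] at hrn
    exact h2 hrn

theorem not_dvd_of_coprime {p n : ℕ} (hp : p.Prime) (h : n.Coprime p) : ¬ p ∣ n := by
  intro hd
  exact hp.one_lt.ne' (Nat.dvd_one.1 (h ▸ Nat.dvd_gcd hd dvd_rfl))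

omit [Finite G] in
/-- `{p,q}`-separability -/
theorem sep {p q : ℕ} [hp : Fact p.Prime] [hq : Fact q.Prime] (hps : IsPSolvable p G) (hqs : IsPSolvable q G) :
    ∀ (N : Subgroup G) [N.Normal], N ≠ ⊤ → ∃ M : Subgroup G, M.Normal ∧ N < M ∧
      (PiNum ({p, q} : Set ℕ) (N.relIndex M) ∨ PiNum ({p, q} : Set ℕ)ᶜ (N.relIndex M)) := by
  intro N hN hne
  obtain ⟨M, hM, hNM, h1⟩ := PSolvTools.exists_step hps N hne
  rcases h1 with h1 | h1
  · exact ⟨M, hM, hNM, Or.inl (piNum_pair hp.out hq.out (Or.inl h1))⟩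
  · obtain ⟨L, hL, hNL, hLM, h2⟩ := exists_step_le hqs N M hNM
    refine ⟨L, hL, hNL, ?_⟩
    rcases h2 with h2 | h2
    · exact Or.inl (piNum_pair hp.out hq.out (Or.inr h2))
    · refine Or.inr (piNum_compl_pair ?_ (not_dvd_of_coprime hq.out h2))
      intro h3
      exact not_dvd_of_coprime hp.out h1 (h3.trans (H32PSolv.relIndex_dvd_of_normal N hLM))

theorem isSolvable_of_piNum {p q : ℕ} (hp : p.Prime) (hq : q.Prime) (K : Subgroup G)
    (hK : PiNum ({p, q} : Set ℕ) (Nat.card K)) : Group.IsSolvable K := by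
  by_cases hpq : p = q
  · subst hpq
    have h1 : ∃ k, Nat.card K = p ^ k := by
      refine ⟨_, Nat.eq_prime_pow_of_unique_prime_dvd Nat.card_pos.ne' ?_⟩
      intro r hr hrd
      rcases hK r hr hrd with h | h
      · exact h
      · exact h
    obtain ⟨k, hk⟩ := h1
    have := Fact.mk hp
    have h2 : IsPGroup p K := IsPGroup.of_card hk
    have := h2.isNilpotent
    infer_instance
  · have h0 : Nat.card K ≠ 0 := Nat.card_pos.ne'
    refine Burnside.isSolvable_of_card_eq (Nat.card K) p q ((Nat.card K).factorization p)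
      ((Nat.card K).factorization q) hp hq ?_ rfl
    have h1 : (Nat.card K).primeFactors ⊆ {p, q} := by
      intro r hr
      rcases hK r (Nat.prime_of_mem_primeFactors hr) (Nat.dvd_of_mem_primeFactors hr) with h | h
      · rw [h]; simp
      · rw [Set.mem_singleton_iff] at h; rw [h]; simp
    conv_lhs => rw [← Nat.prod_factorization_pow_eq_self h0]
    rw [← Finset.prod_pair (f := fun x => x ^ (Nat.card K).factorization x) hpq]
    refine Finset.prod_subset h1 fun x _ hx => ?_
    have hx' := Finsupp.notMem_support_iff.mp hx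
    show x ^ _ = 1
    rw [hx', pow_zero]

/-- If `N_G(P) ≤ N_G(Y)` for a Sylow `q`-subgroup `Y` then `Y` lies in every subgroup of index prime to `q` above `P`. -/
theorem sylow_le {p q : ℕ} [hp : Fact p.Prime] [hq : Fact q.Prime] (hpq : p ≠ q)
    (hps : IsPSolvable p G) (hqs : IsPSolvable q G) (P : Sylow p G) (Y : Sylow q G)
    (hN : normalizer ((P : Subgroup G) : Set G) ≤ normalizer ((Y : Subgroup G) : Set G))
    (I : Subgroup G) (hPI : (P : Subgroup G) ≤ I) (hI : ¬ q ∣ I.index) : (Y : Subgroup G) ≤ I := by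
  have hPY : (P : Subgroup G) ≤ normalizer ((Y : Subgroup G) : Set G) := le_normalizer.trans hN
  obtain ⟨a, ha⟩ := IsPGroup.iff_card.mp P.isPGroup'
  obtain ⟨b, hb⟩ := IsPGroup.iff_card.mp Y.isPGroup'
  have hcop : (Nat.card Y).Coprime (Nat.card P) := by
    rw [ha, hb]
    exact Nat.Coprime.pow _ _ ((Nat.coprime_primes hq.out hp.out).mpr hpq.symm)
  have hcard : Nat.card ((Y : Subgroup G) ⊔ (P : Subgroup G) : Subgroup G) = q ^ b * p ^ a := by
    rw [card_sup_of_coprime hPY hcop]
    exact congrArg₂ (· * ·) hb ha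
  have hPi : ∀ K : Subgroup G, (P : Subgroup G) ≤ K → ¬ p ∣ K.index := fun K hK h =>
    P.not_dvd_index (h.trans (Subgroup.index_dvd_of_le hK))
  have hYi : ∀ K : Subgroup G, (Y : Subgroup G) ≤ K → ¬ q ∣ K.index := fun K hK h =>
    Y.not_dvd_index (h.trans (Subgroup.index_dvd_of_le hK))
  set H := (Y : Subgroup G) ⊔ (P : Subgroup G) with hH
  have hHall : IsPiHall ({p, q} : Set ℕ) H := by
    rw [isPiHall_iff]
    refine ⟨?_, piNum_compl_pair (hPi H le_sup_right) (hYi H le_sup_left)⟩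
    rw [hcard]
    exact (piNum_pair hp.out hq.out (Or.inr ⟨b, dvd_rfl⟩)).mul (piNum_pair hp.out hq.out (Or.inl ⟨a, dvd_rfl⟩))
  -- a Hall subgroup of `I`
  obtain ⟨K0, hK0⟩ := exists_isPiHall_of_sep (π := ({p, q} : Set ℕ)) (G := I)
    (sep (H32PSolv.isPSolvable_subgroup hps I) (H32PSolv.isPSolvable_subgroup hqs I))
  have hK1 := isPiHall_of_isPiHallOf (isPiHallOf_map_subtype hK0)
    (piNum_compl_pair (hPi I hPI) hI)
  set K := K0.map I.subtype with hKdef
  have hKI : K ≤ I := map_subtype_le _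
  -- a conjugate of `P` in `K`
  obtain ⟨i, hiI, hPK⟩ : ∃ i ∈ I, (P : Subgroup G) ≤ MulAut.conj i • K := by
    obtain ⟨S⟩ : Nonempty (Sylow p K) := inferInstance
    have hS1 : (S : Subgroup K).map K.subtype ≤ K := map_subtype_le _
    have hS2 : IsPGroup p ((S : Subgroup K).map K.subtype) := S.2.map K.subtype
    have hS3 : ¬ p ∣ ((S : Subgroup K).map K.subtype).relIndex K := by
      have h1 : ((S : Subgroup K).map K.subtype).subgroupOf K = (S : Subgroup K) := by
        rw [subgroupOf, comap_map_eq_self_of_injective K.subtype_injective]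
      rw [relIndex, h1]
      exact S.not_dvd_index
    have hKi : ¬ p ∣ K.index := by
      intro h
      exact (isPiHall_iff.mp hK1).2 p hp.out h (Or.inl rfl)
    have hS4 : ¬ p ∣ ((S : Subgroup K).map K.subtype).relIndex I := by
      intro h
      have h1 := Subgroup.relIndex_mul_relIndex ((S : Subgroup K).map K.subtype) K I hS1 hKI
      rw [← h1] at h
      rcases hp.out.dvd_mul.mp h with h | h
      · exact hS3 h
      · exact hKi (h.trans (Subgroup.relIndex_dvd_index_of_le hKI))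
    have hP4 : ¬ p ∣ (P : Subgroup G).relIndex I := fun h =>
      P.not_dvd_index (h.trans (Subgroup.relIndex_dvd_index_of_le hPI))
    obtain ⟨m, hm, hmP⟩ := sylow_conj_rel (hS1.trans hKI) hPI hS2 P.isPGroup' hS4 hP4
    refine ⟨m, hm, ?_⟩
    rw [← hmP]
    exact conj_smul_mono _ hS1
  set K' := MulAut.conj i • K with hK'
  have hK'I : K' ≤ I := by
    have := conj_smul_mono i hKI
    rwa [conj_smul_self_of_mem hiI] at this
  have hK'H : IsPiHall ({p, q} : Set ℕ) K' := isPiHall_conj_smul i hK1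
  -- conjugate to `H`
  obtain ⟨g, hg⟩ := exists_conj_le_of_sep H K' hHall (isPiHall_iff.mp hK'H).1 (by
    intro N hN' hne
    obtain ⟨M, hM, hNM, h1⟩ := sep hps hqs N hne
    refine ⟨M, hM, hNM, h1.imp id fun h => ⟨h, Or.inl ?_⟩⟩
    exact isSolvable_of_piNum hp.out hq.out K' (isPiHall_iff.mp hK'H).1)
  have hKg : K' = MulAut.conj g • H :=
    eq_of_isPiHall_le_isPiHall hK'H (isPiHall_conj_smul g hHall) hg
  -- adjust by an element of `K'`
  have hPg1 : MulAut.conj g • (P : Subgroup G) ≤ K' := by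
    rw [hKg]; exact conj_smul_mono _ le_sup_right
  have hPg2 : IsPGroup p (MulAut.conj g • (P : Subgroup G) : Subgroup G) := P.isPGroup'.map _
  have hrel : ∀ R : Subgroup G, R ≤ K' → Nat.card R = Nat.card P → ¬ p ∣ R.relIndex K' := by
    intro R hR hRc h
    have h1 := card_mul_relIndex_of_le hR
    have h2 := card_mul_relIndex_of_le hPK
    rw [hRc, ← h2] at h1
    have h3 := Nat.eq_of_mul_eq_mul_left Nat.card_pos h1
    rw [h3] at h
    exact P.not_dvd_index (h.trans (Subgroup.relIndex_dvd_index_of_le hPK))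
  obtain ⟨k, hk, hkP⟩ := sylow_conj_rel hPg1 hPK hPg2 P.isPGroup'
    (hrel _ hPg1 (card_conj_smul g (P : Subgroup G))) (hrel _ hPK rfl)
  rw [← conj_smul_mul] at hkP
  have h1 : k * g ∈ normalizer ((P : Subgroup G) : Set G) := mem_normalizer_iff_conj_smul.mpr hkP
  have h2 := conj_smul_of_mem_normalizer (hN h1)
  have h3 : MulAut.conj (k * g) • (Y : Subgroup G) ≤ K' := by
    rw [conj_smul_mul]
    have h4 : MulAut.conj g • (Y : Subgroup G) ≤ K' := by
      rw [hKg]; exact conj_smul_mono _ le_sup_left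
    have h5 := conj_smul_mono k h4
    rwa [conj_smul_self_of_mem hk] at h5
  rw [h2] at h3
  exact h3.trans hK'I

end Cfsg.Agent.Lib.CrossHall
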