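import Cfsg.Agent.Lib.CrossDeg
import Cfsg.Agent.Lib.CrossHall
import Cfsg.Agent.Lib.CrossCop
import Cfsg.Agent.Lib.H76Ext
import Cfsg.Agent.Lib.GoingDown
import Cfsg.Agent.Lib.H70Frattini
import Cfsg.Agent.Lib.CoprimeAction2
import Cfsg.Agent.Lib.Cores

/-!
# Groups in which all characters of degree prime to `p` have degree prime to `q` (helper95)

`main`: if `G` is `p`-soluble and `q`-soluble and every irreducible character of degree prime to `p` has degree prime to
`q`, then `N_G(P) ≤ N_G(Q)` for some Sylow `q`-subgroup `Q`.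
-/

set_option autoImplicit false

namespace Cfsg.Agent.Lib.CrossMain

open Subgroup Cfsg Cfsg.Agent.Lib Cfsg.Agent.Lib.SubgroupTools Cfsg.Agent.Lib.CharBasic Cfsg.Agent.Lib.Clifford
  Cfsg.Agent.Lib.DefectZero
open scoped Pointwise commutatorElement

universe u

section

variable {G : Type u} [Group G] [Finite G] {p q : ℕ} [hp : Fact p.Prime] [hq : Fact q.Prime]

/-- the preimage of a Sylow `q`-subgroup of `G/N` lies in the inertia group -/
theorem comap_le_inertia (hpq : p ≠ q) (hps : IsPSolvable p G) (hqs : IsPSolvable q G) (N : Subgroup G) [N.Normal]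
    [Fintype N] (P : Sylow p G) (Y : Sylow q (G ⧸ N))
    (hY : normalizer (((P.mapSurjective (QuotientGroup.mk'_surjective N) : Sylow p (G ⧸ N)) : Subgroup (G ⧸ N)) : Set (G ⧸ N)) ≤
      normalizer ((Y : Subgroup (G ⧸ N)) : Set (G ⧸ N)))
    {θ : N → ℂ} (hθ : IsIrrCharacter N θ) (hPθ : ∀ x ∈ (P : Subgroup G), cj N x θ = θ) {χ : G → ℂ}
    (hχ : IsIrrCharacter G χ) (h : classInner (fun n : N => χ n) θ ≠ 0) (hd : ¬ q ∣ charDegree χ) :
    (Y : Subgroup (G ⧸ N)).comap (QuotientGroup.mk' N) ≤ inertia N θ := by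
  set I := inertia N θ with hI
  have hNI : N ≤ I := le_inertia hθ.isClassFunction
  have hker : (QuotientGroup.mk' N).ker ≤ I := by rw [QuotientGroup.ker_mk']; exact hNI
  have hIq : ¬ q ∣ I.index := fun h' => hd (h'.trans (CrossDeg.inertia_index_dvd N hχ hθ h))
  have hPI : (P : Subgroup G) ≤ I := fun x hx => hPθ x hx
  have h1 := CrossHall.sylow_le hpq (H32PSolv.isPSolvable_quotient hps N) (H32PSolv.isPSolvable_quotient hqs N)
    (P.mapSurjective (QuotientGroup.mk'_surjective N)) Y hY (I.map (QuotientGroup.mk' N)) (map_mono hPI) (by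
      rw [Subgroup.index_map_eq I (QuotientGroup.mk'_surjective N) hker]
      exact hIq)
  have h2 := comap_mono (f := QuotientGroup.mk' N) h1
  rwa [comap_map_eq_self hker] at h2

/-- above a `P`-invariant character of a normal `p'`-subgroup there is a character of degree prime to `p` -/
theorem exists_over_invariant (N : Subgroup G) [hNn : N.Normal] [Fintype N] (P : Sylow p G) (hN : (Nat.card N).Coprime p)
    {θ : N → ℂ} (hθ : IsIrrCharacter N θ) (hPθ : ∀ x ∈ (P : Subgroup G), cj N x θ = θ) :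
    ∃ χ : IrrCharacter G, ¬ p ∣ charDegree (χ : G → ℂ) ∧ classInner (fun n : N => (χ : G → ℂ) n) θ ≠ 0 := by
  classical
  obtain ⟨H, hH⟩ : ∃ H : Subgroup G, H = N ⊔ (P : Subgroup G) := ⟨_, rfl⟩
  have hNH : N ≤ H := by rw [hH]; exact le_sup_left
  have hPH : (P : Subgroup G) ≤ H := by rw [hH]; exact le_sup_right
  have hHI : H ≤ inertia N θ := by
    rw [hH]
    exact sup_le (le_inertia hθ.isClassFunction) (fun x hx => hPθ x hx)
  have := Fintype.ofFinite H
  let e : N.subgroupOf H ≃* N := Subgroup.subgroupOfEquivOfLe hNH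
  have hθ' : IsIrrCharacter (N.subgroupOf H) (fun x => θ (e x)) := (isIrrCharacter_comp_mulEquiv_iff e).mpr hθ
  have hinv : ∀ g : H, cj (N.subgroupOf H) g (fun x => θ (e x)) = fun x => θ (e x) := by
    intro g
    funext n
    have h1 := congrFun (hHI g.2 : cj N (g : G) θ = θ) (e n)
    rw [← h1, cj_apply, cj_apply]
    rfl
  have hcard : Nat.card (N.subgroupOf H) = Nat.card N := card_subgroupOf_of_le hNH
  have hidx : (N.subgroupOf H).index ∣ Nat.card P := by
    have h1 : (N.subgroupOf H).index = N.relIndex H := rfl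
    rw [h1, hH, Subgroup.relIndex_sup_left]
    exact Subgroup.relIndex_dvd_card _ _
  obtain ⟨a, ha⟩ := IsPGroup.iff_card.mp P.isPGroup'
  have hcop : Nat.Coprime (N.subgroupOf H).index (Nat.card (N.subgroupOf H)) := by
    rw [hcard]
    refine Nat.Coprime.coprime_dvd_left hidx ?_
    rw [ha]
    exact Nat.Coprime.pow_left _ hN.symm
  obtain ⟨ψ, hψ, hext⟩ := H76Ext.exists_extension_of_coprime_card (N.subgroupOf H) hθ' hinv hcop
  have hext' : ∀ n : N, ψ ⟨n, hNH n.2⟩ = θ n := by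
    intro n
    have h1 := hext ⟨⟨n, hNH n.2⟩, n.2⟩
    rw [h1]
    rfl
  have hdeg : charDegree ψ = charDegree θ := by
    have h2 := hext' 1
    have h3 : (⟨((1 : N) : G), hNH (1 : N).2⟩ : H) = 1 := rfl
    rw [h3] at h2
    rw [charDegree, charDegree, h2]
  have hpd : ¬ p ∣ charDegree ψ := by
    rw [hdeg]
    intro h
    have h1 := h.trans (charDegree_dvd hθ)
    have h2 : p ∣ 1 := by rw [← hN]; exact Nat.dvd_gcd h1 dvd_rfl
    exact hp.out.one_lt.ne' (Nat.dvd_one.mp h2)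
  have hHi : ¬ p ∣ H.index := fun h => P.not_dvd_index (h.trans (Subgroup.index_dvd_of_le hPH))
  obtain ⟨χ, h1, h2⟩ := CrossDeg.exists_over H hHi hψ hpd
  exact ⟨χ, h1, CrossDeg.classInner_ne_zero_of_ext hNH χ.2.isCharacter hψ hθ hext' h2⟩

/-- the coprime step -/
theorem coprime_step (hpq : p ≠ q) (hps : IsPSolvable p G) (hqs : IsPSolvable q G)
    (hdeg : ∀ χ : IrrCharacter G, ¬ p ∣ charDegree (χ : G → ℂ) → ¬ q ∣ charDegree (χ : G → ℂ))
    (N : Subgroup G) [hNn : N.Normal] (P : Sylow p G) (Y : Sylow q (G ⧸ N))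
    (hY : normalizer (((P.mapSurjective (QuotientGroup.mk'_surjective N) : Sylow p (G ⧸ N)) : Subgroup (G ⧸ N)) : Set (G ⧸ N)) ≤
      normalizer ((Y : Subgroup (G ⧸ N)) : Set (G ⧸ N)))
    (hNp : (Nat.card N).Coprime p) (hNq : (Nat.card N).Coprime q) (Q : Subgroup G) (hQ : IsPGroup q Q)
    (hQY : Q ≤ (Y : Subgroup (G ⧸ N)).comap (QuotientGroup.mk' N)) (hPQ : (P : Subgroup G) ≤ normalizer (Q : Set G)) :
    N ⊓ centralizer ((P : Subgroup G) : Set G) ≤ centralizer (Q : Set G) := by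
  classical
  have := Fintype.ofFinite N
  obtain ⟨a, ha⟩ := IsPGroup.iff_card.mp P.isPGroup'
  obtain ⟨b, hb⟩ := IsPGroup.iff_card.mp hQ
  have hcop : (Nat.card Q).Coprime (Nat.card P) := by
    rw [ha, hb]
    exact Nat.Coprime.pow _ _ ((Nat.coprime_primes hq.out hp.out).mpr hpq.symm)
  have hcard : Nat.card (Q ⊔ (P : Subgroup G) : Subgroup G) = q ^ b * p ^ a := by
    rw [card_sup_of_coprime hPQ hcop]
    exact congrArg₂ (· * ·) hb ha
  have hsolv : Group.IsSolvable (Q ⊔ (P : Subgroup G) : Subgroup G) := by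
    apply CrossHall.isSolvable_of_piNum hp.out hq.out
    rw [hcard]
    exact (CrossHall.piNum_pair hp.out hq.out (Or.inr ⟨b, dvd_rfl⟩)).mul
      (CrossHall.piNum_pair hp.out hq.out (Or.inl ⟨a, dvd_rfl⟩))
  have h1 := CrossCop.centralizer_le (A := Q ⊔ (P : Subgroup G)) (B := (P : Subgroup G)) (N := N) le_sup_right hsolv (by
    rw [hcard]
    exact Nat.Coprime.mul_right (Nat.Coprime.pow_right _ hNq) (Nat.Coprime.pow_right _ hNp)) (by
    intro θ hθ x hx
    obtain ⟨χ, hχp, hχ⟩ := exists_over_invariant N P hNp θ.2 hθ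
    have h2 := comap_le_inertia hpq hps hqs N P Y hY θ.2 hθ χ.2 hχ (hdeg χ hχp)
    have h3 : Q ⊔ (P : Subgroup G) ≤ inertia N (θ : N → ℂ) := sup_le (hQY.trans h2) (fun x hx => hθ x hx)
    exact h3 hx)
  exact h1.trans (Subgroup.centralizer_le (by exact_mod_cast (le_sup_left : Q ≤ Q ⊔ (P : Subgroup G))))

/-- the preimage of a Sylow `q`-subgroup of `G/N` is `NQ` -/
theorem sup_eq_comap (N : Subgroup G) [N.Normal] (Y : Sylow q (G ⧸ N)) {Q : Subgroup G}
    (hQY : Q ≤ (Y : Subgroup (G ⧸ N)).comap (QuotientGroup.mk' N))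
    (hQi : ¬ q ∣ Q.relIndex ((Y : Subgroup (G ⧸ N)).comap (QuotientGroup.mk' N))) :
    N ⊔ Q = (Y : Subgroup (G ⧸ N)).comap (QuotientGroup.mk' N) := by
  set X := (Y : Subgroup (G ⧸ N)).comap (QuotientGroup.mk' N) with hX
  have hNX : N ≤ X := by
    have := Subgroup.ker_le_comap (QuotientGroup.mk' N) (Y : Subgroup (G ⧸ N))
    rwa [QuotientGroup.ker_mk'] at this
  have hle : N ⊔ Q ≤ X := sup_le hNX hQY
  apply le_antisymm hle
  rw [← Subgroup.relIndex_eq_one]
  have h1 : (N ⊔ Q).relIndex X ∣ Q.relIndex X := Subgroup.relIndex_dvd_of_le_left _ le_sup_right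
  have h2 : (N ⊔ Q).relIndex X ∣ N.relIndex X := Subgroup.relIndex_dvd_of_le_left _ le_sup_left
  have h3 : N.relIndex X = Nat.card Y := by
    rw [← H32PSolv.card_map_mk, hX, map_comap_eq_self_of_surjective (QuotientGroup.mk'_surjective N)]
  obtain ⟨b, hb⟩ := IsPGroup.iff_card.mp Y.isPGroup'
  rw [h3, hb] at h2
  obtain ⟨i, -, hi⟩ := (Nat.dvd_prime_pow hq.out).mp h2
  by_cases h0 : i = 0
  · rw [hi, h0, pow_zero]
  · exfalso
    apply hQi
    refine dvd_trans ?_ h1
    rw [hi]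
    exact dvd_pow_self q h0

/-- conjugates of `Q` under the normalizer of `NQ` are conjugates under `N` -/
theorem exists_conj_N (N : Subgroup G) [N.Normal] {X Q : Subgroup G} (hX : N ⊔ Q = X) (hQ : IsPGroup q Q)
    (hQi : ¬ q ∣ Q.relIndex X) {x : G} (hx : x ∈ normalizer (X : Set G)) :
    ∃ n ∈ N, MulAut.conj n • Q = MulAut.conj x • Q := by
  have hQX : Q ≤ X := by rw [← hX]; exact le_sup_right
  have h1 : MulAut.conj x • Q ≤ X := by
    have := conj_smul_mono x hQX
    rwa [conj_smul_of_mem_normalizer hx] at this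
  have h2 : ¬ q ∣ (MulAut.conj x • Q : Subgroup G).relIndex X := by
    intro h
    have h3 := card_mul_relIndex_of_le h1
    have h4 := card_mul_relIndex_of_le hQX
    rw [card_conj_smul, ← h4] at h3
    rw [Nat.eq_of_mul_eq_mul_left Nat.card_pos h3] at h
    exact hQi h
  obtain ⟨y, hy, hyx⟩ := sylow_conj_rel hQX h1 hQ (hQ.map _) hQi h2
  rw [← hX, mem_sup_of_le_normalizer le_normalizer_of_normal] at hy
  obtain ⟨n, hn, k, hk, rfl⟩ := hy
  refine ⟨n, hn, ?_⟩
  rw [← hyx, conj_smul_mul, conj_smul_self_of_mem hk]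

/-- the `p`-group step -/
theorem pgroup_step (hpq : p ≠ q) (hps : IsPSolvable p G) (hqs : IsPSolvable q G)
    (hdeg : ∀ χ : IrrCharacter G, ¬ p ∣ charDegree (χ : G → ℂ) → ¬ q ∣ charDegree (χ : G → ℂ))
    (N : Subgroup G) [hNn : N.Normal] (P : Sylow p G) (Y : Sylow q (G ⧸ N))
    (hY : normalizer (((P.mapSurjective (QuotientGroup.mk'_surjective N) : Sylow p (G ⧸ N)) : Subgroup (G ⧸ N)) : Set (G ⧸ N)) ≤
      normalizer ((Y : Subgroup (G ⧸ N)) : Set (G ⧸ N)))
    (hN : IsPGroup p N) (Q : Subgroup G) (hQ : IsPGroup q Q)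
    (hQY : Q ≤ (Y : Subgroup (G ⧸ N)).comap (QuotientGroup.mk' N))
    (hQi : ¬ q ∣ Q.relIndex ((Y : Subgroup (G ⧸ N)).comap (QuotientGroup.mk' N)))
    (hPX : (P : Subgroup G) ≤ normalizer (((Y : Subgroup (G ⧸ N)).comap (QuotientGroup.mk' N) : Subgroup G) : Set G)) :
    N ≤ centralizer (Q : Set G) := by
  classical
  have := Fintype.ofFinite N
  have := Fintype.ofFinite P
  have hX := sup_eq_comap N Y hQY hQi
  set X := (Y : Subgroup (G ⧸ N)).comap (QuotientGroup.mk' N) with hXdef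
  obtain ⟨a, ha⟩ := IsPGroup.iff_card.mp hN
  obtain ⟨b, hb⟩ := IsPGroup.iff_card.mp hQ
  have hcop : (Nat.card Q).Coprime (Nat.card N) := by
    rw [ha, hb]
    exact Nat.Coprime.pow _ _ ((Nat.coprime_primes hq.out hp.out).mpr hpq.symm)
  have hQN : Q ≤ normalizer (N : Set G) := le_normalizer_of_normal
  have hsolv : Group.IsSolvable Q ∨ Group.IsSolvable N := by
    left
    have := hQ.isNilpotent
    infer_instance
  have hNP : N ≤ (P : Subgroup G) := (Cores.le_pCore hNn hN).trans (Cores.pCore_le_sylow P)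
  obtain ⟨M, hM⟩ : ∃ M : Subgroup G, M = ⁅N, Q⁆ := ⟨_, rfl⟩
  have hMN : M ≤ N := by rw [hM]; exact le_normalizer_iff_commutator_le_left.mp hQN
  -- the case `[N,Q] = 1`
  by_cases hM1 : M = ⊥
  · rw [hM] at hM1
    exact (commutator_eq_bot_iff_le_centralizer).mp hM1
  exfalso
  -- `P = M (P ∩ N_G(Q))`
  have hfac : ∀ x ∈ (P : Subgroup G), ∃ m ∈ M, m⁻¹ * x ∈ normalizer (Q : Set G) := by
    intro x hx
    obtain ⟨n, hn, hnx⟩ := exists_conj_N N hX hQ hQi (hPX hx)
    obtain ⟨m, hm, c, hc, rfl⟩ := CoprimeAction2.exists_eq_mul_of_mem hQN hcop hsolv hn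
    refine ⟨m, by rw [hM]; exact hm, ?_⟩
    have h1 : (m * c)⁻¹ * x ∈ normalizer (Q : Set G) := by
      rw [mem_normalizer_iff_conj_smul, conj_smul_mul, ← hnx, ← conj_smul_mul, inv_mul_cancel, conj_smul_one]
    have h2 : c ∈ normalizer (Q : Set G) := (Subgroup.centralizer_le_normalizer (Q : Set G)) (mem_inf.mp hc).2
    have h3 := mul_mem h2 h1
    have h4 : c * ((m * c)⁻¹ * x) = m⁻¹ * x := by group
    rwa [h4] at h3
  -- `M` is not in `P'`
  obtain ⟨m, hmM, hm⟩ : ∃ m : (P : Subgroup G), (m : G) ∈ M ∧ m ∉ commutator (P : Subgroup G) := by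
    by_contra hcon
    push Not at hcon
    have h1 : (normalizer (Q : Set G)).subgroupOf (P : Subgroup G) = ⊤ := by
      apply frattini_nongenerating
      rw [eq_top_iff]
      intro x _
      obtain ⟨m, hm, hmx⟩ := hfac x x.2
      have h2 : (⟨m, hNP (hMN hm)⟩ : (P : Subgroup G)) ∈ frattini (P : Subgroup G) :=
        H70Frattini.commutator_le_frattini P.isPGroup' (hcon _ hm)
      have h3 : (⟨m, hNP (hMN hm)⟩ : (P : Subgroup G))⁻¹ * x ∈ (normalizer (Q : Set G)).subgroupOf (P : Subgroup G) := by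
        rw [mem_subgroupOf]
        exact hmx
      have h4 := mul_mem (mem_sup_right h2 : _ ∈ (normalizer (Q : Set G)).subgroupOf (P : Subgroup G) ⊔ frattini (P : Subgroup G))
        (mem_sup_left h3)
      rwa [mul_inv_cancel_left] at h4
    have h2 : (P : Subgroup G) ≤ normalizer (Q : Set G) := by
      rwa [subgroupOf_eq_top] at h1
    have h3 : M ≤ normalizer (Q : Set G) := hMN.trans (hNP.trans h2)
    have h4 : ⁅M, Q⁆ ≤ M ⊓ Q := by
      apply le_inf
      · rw [hM]
        exact le_normalizer_iff_commutator_le_left.mp (normalizer_commutator_ge_right N Q)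
      · exact le_normalizer_iff_commutator_le_right.mp h3
    have h5 : M ⊓ Q = ⊥ := by
      apply inf_eq_bot_of_coprime'
      exact Nat.Coprime.coprime_dvd_left (Subgroup.card_dvd_of_le hMN) hcop.symm
    rw [h5, le_bot_iff, hM, CoprimeAction2.commutator_commutator hQN hcop hsolv, ← hM] at h4
    exact hM1 h4
  -- the linear character
  obtain ⟨f, hf1, hf2⟩ := GoingDown.exists_hom_ne_one (K := (P : Subgroup G)) (L := commutator (P : Subgroup G))
    (fun a b => commutator_mem_commutator (mem_top a) (mem_top b)) hm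
  let μ : ↥(P : Subgroup G) → ℂ := fun x => (f x : ℂ)
  have hμc : IsCharacter (P : Subgroup G) μ := isCharacter_of_unitsHom f
  have hμ : IsIrrCharacter (P : Subgroup G) μ := hμc.isIrr_of_one_eq_one (by simp [μ])
  have hμd : ¬ p ∣ charDegree μ := by
    have h1 := charDegree_eq hμc
    have h2 : μ 1 = 1 := by simp [μ]
    rw [h2] at h1
    have h3 : charDegree μ = 1 := by exact_mod_cast h1
    rw [h3]
    exact hp.out.one_lt.ne' ∘ Nat.dvd_one.mp
  let ν : N → ℂ := fun n => μ ⟨n, hNP n.2⟩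
  have hνc : IsCharacter N ν := hμc.comp (Subgroup.inclusion hNP)
  have hν : IsIrrCharacter N ν := hνc.isIrr_of_one_eq_one (by
    show (f (1 : (P : Subgroup G)) : ℂ) = 1
    simp)
  obtain ⟨χ, hχp, hχ⟩ := CrossDeg.exists_over (P : Subgroup G) P.not_dvd_index hμ hμd
  have hχN := CrossDeg.classInner_ne_zero_of_ext hNP χ.2.isCharacter hμ hν (fun n => rfl) hχ
  have hPν : ∀ x ∈ (P : Subgroup G), cj N x ν = ν := by
    intro x hx
    funext n
    rw [cj_apply]
    show (f ⟨x * n * x⁻¹, _⟩ : ℂ) = (f ⟨n, _⟩ : ℂ)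
    have h1 : (⟨x * n * x⁻¹, hNP (hNn.conj_mem n n.2 x)⟩ : (P : Subgroup G)) = ⟨x, hx⟩ * ⟨n, hNP n.2⟩ * ⟨x, hx⟩⁻¹ := rfl
    rw [h1, map_mul, map_mul, map_inv, mul_right_comm, mul_inv_cancel, one_mul]
  have hXI := comap_le_inertia hpq hps hqs N P Y hY hν hPν χ.2 hχN (hdeg χ hχp)
  -- `ν` is trivial on `M`
  have hMker : M ≤ (f.ker.map (P : Subgroup G).subtype) := by
    rw [hM, commutator_le]
    intro n hn y hy
    have h1 : cj N y ν = ν := hXI (hQY hy)
    have h2 := congrFun h1 ⟨n, hn⟩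
    rw [cj_apply] at h2
    have h3 : (f ⟨y * n * y⁻¹, hNP (hNn.conj_mem n hn y)⟩ : ℂ) = (f ⟨n, hNP hn⟩ : ℂ) := h2
    have h4 : f ⟨y * n * y⁻¹, hNP (hNn.conj_mem n hn y)⟩ = f ⟨n, hNP hn⟩ := Units.ext h3
    refine ⟨⟨n, hNP hn⟩ * ⟨y * n * y⁻¹, hNP (hNn.conj_mem n hn y)⟩⁻¹, ?_, ?_⟩
    · show _ ∈ f.ker
      rw [MonoidHom.mem_ker, map_mul, map_inv, h4, mul_inv_cancel]
    · show n * (y * n * y⁻¹)⁻¹ = ⁅n, y⁆
      rw [commutatorElement_def]
      group
  obtain ⟨m', hm', hmm⟩ := hMker hmM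
  have h5 : m' = m := Subtype.ext hmm
  rw [h5] at hm'
  exact hf2 (MonoidHom.mem_ker.mp hm')

end

theorem main {p q : ℕ} [hp : Fact p.Prime] [hq : Fact q.Prime] (hpq : p ≠ q) : ∀ (n : ℕ) (G : Type u) [Group G] [Finite G],
    Nat.card G = n → IsPSolvable p G → IsPSolvable q G →
    (∀ χ : IrrCharacter G, ¬ p ∣ charDegree (χ : G → ℂ) → ¬ q ∣ charDegree (χ : G → ℂ)) → ∀ P : Sylow p G,
    ∃ Q : Sylow q G, normalizer ((P : Subgroup G) : Set G) ≤ normalizer ((Q : Subgroup G) : Set G) := by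
  intro n
  induction n using Nat.strong_induction_on with
  | _ n ih =>
  intro G _ _ hn hps hqs hdeg P
  by_cases hG : (⊥ : Subgroup G) = ⊤
  · obtain ⟨Q⟩ : Nonempty (Sylow q G) := inferInstance
    refine ⟨Q, fun x _ => ?_⟩
    have h1 : x ∈ (⊥ : Subgroup G) := by rw [hG]; trivial
    rw [mem_bot.mp h1]
    exact one_mem _
  have hlt : (⊥ : Subgroup G) < ⊤ := lt_of_le_of_ne bot_le hG
  -- a normal subgroup
  obtain ⟨N, hNn, hN1, hN⟩ : ∃ N : Subgroup G, N.Normal ∧ N ≠ ⊥ ∧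
      (IsPGroup p N ∨ IsPGroup q N ∨ ((Nat.card N).Coprime p ∧ (Nat.card N).Coprime q)) := by
    obtain ⟨L, hL, hbL, -, h1⟩ := CrossHall.exists_step_le hps ⊥ ⊤ hlt
    rw [Subgroup.relIndex_bot_left] at h1
    rcases h1 with ⟨k, hk⟩ | h1
    · obtain ⟨j, -, hj⟩ := (Nat.dvd_prime_pow hp.out).1 hk
      exact ⟨L, hL, hbL.ne', Or.inl (IsPGroup.of_card hj)⟩
    · obtain ⟨L', hL', hbL', hLL', h2⟩ := CrossHall.exists_step_le hqs ⊥ L hbL
      rw [Subgroup.relIndex_bot_left] at h2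
      refine ⟨L', hL', hbL'.ne', Or.inr ?_⟩
      rcases h2 with ⟨k, hk⟩ | h2
      · obtain ⟨j, -, hj⟩ := (Nat.dvd_prime_pow hq.out).1 hk
        exact Or.inl (IsPGroup.of_card hj)
      · exact Or.inr ⟨Nat.Coprime.coprime_dvd_left (Subgroup.card_dvd_of_le hLL') h1, h2⟩
  -- induction
  have hcard : Nat.card (G ⧸ N) < n := by
    rw [← hn, ← Subgroup.index_eq_card, ← Subgroup.card_mul_index N]
    have h1 : 1 < Nat.card N := (Subgroup.one_lt_card_iff_ne_bot N).mpr hN1
    have h2 : 0 < N.index := Nat.pos_of_ne_zero Subgroup.index_ne_zero_of_finite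
    nlinarith
  obtain ⟨Y, hY⟩ := ih _ hcard (G ⧸ N) rfl (H32PSolv.isPSolvable_quotient hps N) (H32PSolv.isPSolvable_quotient hqs N)
    (by
      intro ψ hψ
      obtain ⟨χ, hχ⟩ := DegTools.exists_inflate N ψ
      rw [← hχ] at hψ ⊢
      exact hdeg χ hψ) (P.mapSurjective (QuotientGroup.mk'_surjective N))
  set X := (Y : Subgroup (G ⧸ N)).comap (QuotientGroup.mk' N) with hX
  have hNX : ∀ x ∈ normalizer ((P : Subgroup G) : Set G), x ∈ normalizer (X : Set G) := by
    intro x hx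
    have h1 : (QuotientGroup.mk' N) x ∈
        normalizer (((P : Subgroup G).map (QuotientGroup.mk' N) : Subgroup (G ⧸ N)) : Set (G ⧸ N)) :=
      Subgroup.le_normalizer_map (QuotientGroup.mk' N) (mem_map_of_mem _ hx)
    have h2 := hY h1
    rw [mem_normalizer_iff] at h2 ⊢
    intro g
    rw [hX, mem_comap, mem_comap, map_mul, map_mul, map_inv]
    exact h2 _
  have hPX : (P : Subgroup G) ≤ normalizer (X : Set G) := fun x hx => hNX x (le_normalizer hx)
  have hXi : ¬ q ∣ X.index := by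
    rw [hX, Subgroup.index_comap_of_surjective _ (QuotientGroup.mk'_surjective N)]
    exact Y.not_dvd_index
  rcases hN with hNp | hNq | ⟨hNp, hNq⟩
  · -- `N` is a `p`-group
    obtain ⟨Q, hQX, hQ, hQi, -⟩ := CoprimeAction.exists_invariant_sylow (A := (⊥ : Subgroup G)) (K := X)
      bot_le (by rw [Subgroup.card_bot]; exact Nat.coprime_one_left _) (Or.inl inferInstance) q
    have hc := pgroup_step hpq hps hqs hdeg N P Y hY hNp Q hQ hQX hQi hPX
    have hQind : ¬ q ∣ Q.index := by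
      rw [← Subgroup.relIndex_mul_index hQX]
      intro h
      rcases hq.out.dvd_mul.mp h with h | h
      · exact hQi h
      · exact hXi h
    refine ⟨hQ.toSylow hQind, fun x hx => ?_⟩
    change x ∈ normalizer (Q : Set G)
    obtain ⟨n, hn, hnx⟩ := exists_conj_N N (sup_eq_comap N Y hQX hQi) hQ hQi (hNX x hx)
    rw [mem_normalizer_iff_conj_smul, ← hnx]
    exact conj_smul_of_mem_normalizer (Subgroup.centralizer_le_normalizer (Q : Set G) (hc hn))
  · -- `N` is a `q`-group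
    have hXq : IsPGroup q X := by
      apply IsPGroup.comap_of_ker_isPGroup Y.isPGroup'
      rw [QuotientGroup.ker_mk']
      exact hNq
    exact ⟨hXq.toSylow hXi, hNX⟩
  · -- `N` is a `{p,q}'`-group
    obtain ⟨a, ha⟩ := IsPGroup.iff_card.mp P.isPGroup'
    obtain ⟨b, hb⟩ := IsPGroup.iff_card.mp Y.isPGroup'
    have hcX : (Nat.card (P : Subgroup G)).Coprime (Nat.card X) := by
      rw [hX, Cores.card_comap_mk]
      apply Nat.Coprime.mul_right
      · rw [ha]; exact Nat.Coprime.pow_left _ hNp.symm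
      · rw [ha, hb]
        exact Nat.Coprime.pow _ _ ((Nat.coprime_primes hp.out hq.out).mpr hpq)
    have hcN : (Nat.card (P : Subgroup G)).Coprime (Nat.card N) := by
      rw [ha]; exact Nat.Coprime.pow_left _ hNp.symm
    have hsP : Group.IsSolvable (P : Subgroup G) := by
      have := P.isPGroup'.isNilpotent
      infer_instance
    obtain ⟨Q, hQX, hQ, hQi, hPQ⟩ := CoprimeAction.exists_invariant_sylow (A := (P : Subgroup G)) (K := X)
      hPX hcX (Or.inl hsP) q
    have hc := coprime_step hpq hps hqs hdeg N P Y hY hNp hNq Q hQ hQX hPQ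
    have hQind : ¬ q ∣ Q.index := by
      rw [← Subgroup.relIndex_mul_index hQX]
      intro h
      rcases hq.out.dvd_mul.mp h with h | h
      · exact hQi h
      · exact hXi h
    refine ⟨hQ.toSylow hQind, fun x hx => ?_⟩
    change x ∈ normalizer (Q : Set G)
    obtain ⟨n, hn, hnx⟩ := exists_conj_N N (sup_eq_comap N Y hQX hQi) hQ hQi (hNX x hx)
    have hPQx : (P : Subgroup G) ≤ normalizer ((MulAut.conj x • Q : Subgroup G) : Set G) := by
      intro y hy
      rw [mem_normalizer_iff_conj_smul, ← conj_smul_mul]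
      have h1 : x⁻¹ * y * x ∈ (P : Subgroup G) := by
        have h2 := (mem_normalizer_iff.mp (inv_mem hx)) y
        rw [inv_inv] at h2
        exact h2.mp hy
      have h3 : y * x = x * (x⁻¹ * y * x) := by group
      rw [h3, conj_smul_mul, conj_smul_of_mem_normalizer (hPQ h1)]
    obtain ⟨c, hcc, hcx⟩ := CoprimeAction.exists_centralizer_conj (A := (P : Subgroup G)) (K := N)
      le_normalizer_of_normal hcN (Or.inl hsP) hPQ hPQx ⟨n, hn, hnx⟩
    rw [mem_normalizer_iff_conj_smul, ← hcx]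
    exact conj_smul_of_mem_normalizer (Subgroup.centralizer_le_normalizer (Q : Set G) (hc hcc))

end Cfsg.Agent.Lib.CrossMain
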