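import Cfsg.Agent.Lib.FongInv
import Cfsg.Agent.Lib.WSup
import Cfsg.Agent.Lib.CrossMain
import Cfsg.Agent.Lib.H76SylNorm
import Cfsg.Agent.Lib.CharBasic2

/-!
# The principal block of a `p`-soluble group, and commuting Sylow subgroups (helper95)
-/

set_option autoImplicit false

namespace Cfsg.Agent.Lib.CrossBlk

open Subgroup Cfsg Cfsg.Agent.Lib Cfsg.Agent.Lib.SubgroupTools Cfsg.Agent.Lib.CharBasic Cfsg.Agent.Lib.Clifford
  Cfsg.Agent.Lib.DefectZero
open scoped Pointwise commutatorElement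

universe u

variable {G : Type u} [Group G] [Finite G] {p q : ℕ} [hp : Fact p.Prime] [hq : Fact q.Prime]

/-- the principal `p`-block of a `p`-soluble group consists of the characters with `O_{p'}(G)` in the kernel -/
theorem mem_principalBlock_iff {M : Ideal AlgInt} (hM : IsPModular p M) (hps : IsPSolvable p G) (χ : IrrCharacter G) :
    χ ∈ principalBlock M G ↔ ∀ n ∈ pPrimeCore p G, (χ : G → ℂ) n = (χ : G → ℂ) 1 := by
  classical
  have := Fintype.ofFinite G
  have := Fintype.ofFinite (pPrimeCore p G)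
  have := BlockRing.isPrime hM
  obtain ⟨B, hB, hmem, -, -⟩ := FongInv.main hM (WSup.isPConstrained_of_isPSolvable hps) (N := pPrimeCore p G) rfl
    ⟨1, isIrrCharacter_one⟩ (fun _ _ => rfl)
  have hone : (⟨1, isIrrCharacter_one⟩ : IrrCharacter G) ∈ B := by
    rw [hmem]
    have h1 : classInner (fun n : pPrimeCore p G => (1 : G → ℂ) n) (1 : pPrimeCore p G → ℂ) = 1 :=
      (isIrrCharacter_one (G := pPrimeCore p G)).classInner_self
    change classInner (fun n : pPrimeCore p G => (1 : G → ℂ) n) (1 : pPrimeCore p G → ℂ) ≠ 0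
    rw [h1]
    exact one_ne_zero
  have hBeq : principalBlock M G = B := (BlockIdem.eq_blockOf hB hone).symm
  rw [hBeq, hmem]
  constructor
  · intro h
    have h1 := res_eq_smul_of_invariant χ.2 (isIrrCharacter_one (G := pPrimeCore p G)) (fun g => rfl) h
    intro n hn
    have h2 := congrFun h1 ⟨n, hn⟩
    have h3 := congrFun h1 1
    simp only [Pi.smul_apply, Pi.one_apply] at h2 h3
    rw [h2, ← h3]
    rfl
  · intro h
    have h1 : (fun n : pPrimeCore p G => (χ : G → ℂ) n) = ((χ : G → ℂ) 1) • (1 : pPrimeCore p G → ℂ) := by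
      funext n
      rw [h n n.2, Pi.smul_apply, Pi.one_apply, smul_eq_mul, mul_one]
    change classInner (fun n : pPrimeCore p G => (χ : G → ℂ) n) (1 : pPrimeCore p G → ℂ) ≠ 0
    rw [h1, classInner_smul_left, (isIrrCharacter_one (G := pPrimeCore p G)).classInner_self, mul_one]
    exact χ.2.one_ne_zero

/-- inflation lies in the principal block -/
theorem inflate_mem {M : Ideal AlgInt} (hM : IsPModular p M) (hps : IsPSolvable p G) {ψ : G ⧸ pPrimeCore p G → ℂ}
    (hψ : IsIrrCharacter (G ⧸ pPrimeCore p G) ψ) :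
    (⟨fun g => ψ (g : G ⧸ pPrimeCore p G), hψ.inflate (pPrimeCore p G)⟩ : IrrCharacter G) ∈ principalBlock M G := by
  rw [mem_principalBlock_iff hM hps]
  intro n hn
  show ψ (n : G ⧸ pPrimeCore p G) = ψ ((1 : G) : G ⧸ pPrimeCore p G)
  rw [(QuotientGroup.eq_one_iff n).mpr hn]
  rfl

/-- if the characters of degree prime to `p` of the principal `p`-block have degree prime to `q`, then
`G/O_{p'}(G)` is a `q'`-group -/
theorem not_dvd_index (hpq : p ≠ q) {M : Ideal AlgInt} (hM : IsPModular p M) (hps : IsPSolvable p G)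
    (hqs : IsPSolvable q G) (h : ∀ χ : IrrCharacter G, χ ∈ principalBlock M G → ¬ p ∣ charDegree (χ : G → ℂ) →
      ¬ q ∣ charDegree (χ : G → ℂ)) : ¬ q ∣ (pPrimeCore p G).index := by
  obtain ⟨P⟩ : Nonempty (Sylow p (G ⧸ pPrimeCore p G)) := inferInstance
  obtain ⟨Q, hPQ⟩ := CrossMain.main hpq _ (G ⧸ pPrimeCore p G) rfl (H32PSolv.isPSolvable_quotient hps _)
    (H32PSolv.isPSolvable_quotient hqs _) (by
      intro ψ hψ
      have h1 : charDegree (fun g : G => (ψ : G ⧸ pPrimeCore p G → ℂ) (g : G ⧸ pPrimeCore p G)) =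
          charDegree (ψ : G ⧸ pPrimeCore p G → ℂ) := rfl
      rw [← h1] at hψ ⊢
      exact h _ (inflate_mem hM hps ψ.2) hψ) P
  have h1 := H76SylNorm.eq_bot_of_normalized hpq (H32PSolv.isPSolvable_quotient hps _)
    (Cores.pPrimeCore_quotient_pPrimeCore p G) P (Q : Subgroup (G ⧸ pPrimeCore p G)) Q.isPGroup'
    (le_normalizer.trans hPQ)
  rw [Subgroup.index_eq_card, ← Subgroup.index_bot, ← h1]
  exact Q.not_dvd_index

/-- degrees in the principal block divide the index of `O_{p'}(G)` -/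
theorem charDegree_dvd_index {M : Ideal AlgInt} (hM : IsPModular p M) (hps : IsPSolvable p G) {χ : IrrCharacter G}
    (hχ : χ ∈ principalBlock M G) : charDegree (χ : G → ℂ) ∣ (pPrimeCore p G).index := by
  rw [mem_principalBlock_iff hM hps] at hχ
  obtain ⟨ψ, hψ, h⟩ := χ.2.deflate (pPrimeCore p G) hχ
  have h1 : charDegree (χ : G → ℂ) = charDegree ψ := by
    rw [charDegree, charDegree, ← h 1]
    rfl
  rw [h1, Subgroup.index_eq_card]
  exact charDegree_dvd hψ

/-- a Sylow `p`-subgroup lies in a normal subgroup of index prime to `p` -/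
theorem sylow_le_of_not_dvd (P : Sylow p G) (N : Subgroup G) [hN : N.Normal] (h : ¬ p ∣ N.index) : (P : Subgroup G) ≤ N := by
  have h1 : IsPGroup p ((P : Subgroup G).map (QuotientGroup.mk' N)) := P.isPGroup'.map _
  obtain ⟨k, hk⟩ := IsPGroup.iff_card.mp h1
  have h2 : Nat.card ((P : Subgroup G).map (QuotientGroup.mk' N)) ∣ N.index := by
    rw [Subgroup.index_eq_card]
    exact Subgroup.card_subgroup_dvd_card _
  have h3 : k = 0 := by
    by_contra h0
    apply h
    rw [hk] at h2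
    exact (dvd_pow_self p h0).trans h2
  rw [h3, pow_zero, Subgroup.card_eq_one] at hk
  rw [Subgroup.map_eq_bot_iff, QuotientGroup.ker_mk'] at hk
  exact hk

/-- commuting Sylow subgroups -/
theorem exists_commute (hpq : p ≠ q) (h1 : ¬ q ∣ (pPrimeCore p G).index) (h2 : ¬ p ∣ (pPrimeCore q G).index) :
    ∃ (P : Sylow p G) (Q : Sylow q G), ∀ x ∈ (P : Subgroup G), ∀ y ∈ (Q : Subgroup G), x * y = y * x := by
  obtain ⟨P⟩ : Nonempty (Sylow p G) := inferInstance
  obtain ⟨Q, hPQ⟩ := H76SylNorm.exists_of_not_dvd p q (pPrimeCore p G) (Cores.coprime_card_pPrimeCore p G) h1 P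
  refine ⟨P, Q, fun x hx y hy => ?_⟩
  have hxK : x ∈ pPrimeCore q G := sylow_le_of_not_dvd P (pPrimeCore q G) h2 hx
  have h3 : x * y * x⁻¹ * y⁻¹ ∈ (Q : Subgroup G) ⊓ pPrimeCore q G := by
    refine mem_inf.mpr ⟨mul_mem ((mem_normalizer_iff.mp (hPQ hx) y).mp hy) (inv_mem hy), ?_⟩
    have h4 := (inferInstance : (pPrimeCore q G).Normal).conj_mem x⁻¹ (inv_mem hxK) y
    have h5 := mul_mem hxK h4
    have h6 : x * (y * x⁻¹ * y⁻¹) = x * y * x⁻¹ * y⁻¹ := by group
    rwa [h6] at h5
  rw [Cores.isPGroup_inf_pPrimeCore Q.isPGroup', mem_bot] at h3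
  calc x * y = (x * y * x⁻¹ * y⁻¹) * (y * x) := by group
    _ = y * x := by rw [h3, one_mul]

end Cfsg.Agent.Lib.CrossBlk
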