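import Cfsg.Agent.Lib.H25BpTr
import Cfsg.Agent.Lib.DefOneTrace

set_option autoImplicit false
set_option linter.all false

/-!
# Relative traces of homomorphisms between representations (helper78)
-/

namespace Cfsg.Agent.Lib.CycG1

open Cfsg.Agent.Lib.BrauerMap Cfsg.Agent.Lib.PairMax
open Cfsg.Agent.Lib.DefOneMod (sum_free)

section Abs

variable {G : Type*} [Group G] {A : Type*} [AddCommGroup A] (α : G →* AddMonoid.End A)

theorem act_mul (g h : G) (a : A) : α (g * h) a = α g (α h a) := by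
  rw [map_mul]; rfl

theorem act_one (a : A) : α 1 a = a := by
  rw [map_one]; rfl

/-- relative trace -/
noncomputable def rt (H K : Subgroup G) (w : A) : A :=
  ∑ᶠ c : K ⧸ H.subgroupOf K, α ((c.out : K) : G) w

/-- absolute trace -/
noncomputable def pt (H : Subgroup G) (w : A) : A := ∑ᶠ x : H, α (x : G) w

theorem rt_eq (H K : Subgroup G) [Fintype (K ⧸ H.subgroupOf K)] (w : A) :
    rt α H K w = ∑ c : K ⧸ H.subgroupOf K, α ((c.out : K) : G) w := by
  unfold rt; rw [finsum_eq_sum_of_fintype]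

theorem pt_eq (H : Subgroup G) [Fintype H] (w : A) : pt α H w = ∑ x : H, α (x : G) w := by
  unfold pt; rw [finsum_eq_sum_of_fintype]

theorem rt_neg [Finite G] (H K : Subgroup G) (w : A) : rt α H K (-w) = - rt α H K w := by
  classical
  have := Fintype.ofFinite (K ⧸ H.subgroupOf K)
  rw [rt_eq, rt_eq, ← Finset.sum_neg_distrib]
  exact Finset.sum_congr rfl fun c _ => map_neg _ _

theorem pt_neg [Finite G] (H : Subgroup G) (w : A) : pt α H (-w) = - pt α H w := by
  classical
  have := Fintype.ofFinite H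
  rw [pt_eq, pt_eq, ← Finset.sum_neg_distrib]
  exact Finset.sum_congr rfl fun c _ => map_neg _ _

theorem act_pt [Finite G] (H : Subgroup G) (w : A) {y : G} (hy : y ∈ H) : α y (pt α H w) = pt α H w := by
  classical
  have := Fintype.ofFinite H
  rw [pt_eq, map_sum]
  refine Eq.trans ?_ (Equiv.sum_comp (Equiv.mulLeft (⟨y, hy⟩ : H)) (fun x : H => α (x : G) w))
  refine Finset.sum_congr rfl fun x _ => ?_
  rw [← act_mul]; rfl

theorem rt_pt [Finite G] {H K : Subgroup G} (hHK : H ≤ K) (w : A) : rt α H K (pt α H w) = pt α K w := by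
  classical
  have := Fintype.ofFinite H
  have := Fintype.ofFinite K
  have := Fintype.ofFinite (K ⧸ H.subgroupOf K)
  rw [rt_eq, pt_eq, pt_eq]
  have h1 : ∀ c : K ⧸ H.subgroupOf K, α ((c.out : K) : G) (∑ x : H, α (x : G) w) =
      ∑ x : H, α (((c.out : K) : G) * x) w := by
    intro c
    rw [map_sum]
    exact Finset.sum_congr rfl fun x _ => (act_mul α _ _ _).symm
  rw [Finset.sum_congr rfl (fun c _ => h1 c), ← Fintype.sum_prod_type' (f := fun (c : K ⧸ H.subgroupOf K) (x : H) =>
    α (((c.out : K) : G) * x) w)]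
  let φ : (K ⧸ H.subgroupOf K) × H → K := fun z => z.1.out * ⟨(z.2 : G), hHK z.2.2⟩
  have hφ : Function.Bijective φ := by
    constructor
    · rintro ⟨c, x⟩ ⟨c', x'⟩ h
      have h1 : c.out * ⟨(x : G), hHK x.2⟩ = c'.out * ⟨(x' : G), hHK x'.2⟩ := h
      have h2 : c = c' := by
        rw [← QuotientGroup.out_eq' c, ← QuotientGroup.out_eq' c']
        apply QuotientGroup.eq.2
        rw [Subgroup.mem_subgroupOf]
        have h3 : c.out⁻¹ * c'.out = ⟨(x : G), hHK x.2⟩ * (⟨(x' : G), hHK x'.2⟩ : K)⁻¹ := by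
          rw [inv_mul_eq_iff_eq_mul, ← mul_assoc, h1]; group
        rw [h3]
        exact H.mul_mem x.2 (H.inv_mem x'.2)
      subst h2
      have h3 := mul_left_cancel h1
      have h4 : (x : G) = x' := congrArg (fun z : K => (z : G)) h3
      rw [Subtype.ext h4]
    · intro t
      have h1 : ((((QuotientGroup.mk t : K ⧸ H.subgroupOf K).out)⁻¹ * t : K) : G) ∈ H := by
        have := QuotientGroup.eq.mp (QuotientGroup.out_eq' (QuotientGroup.mk t : K ⧸ H.subgroupOf K))
        rw [Subgroup.mem_subgroupOf] at this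
        exact this
      refine ⟨(QuotientGroup.mk t, ⟨_, h1⟩), ?_⟩
      apply Subtype.ext
      change (((QuotientGroup.mk t : K ⧸ H.subgroupOf K).out : K) : G) * ((((QuotientGroup.mk t : K ⧸ H.subgroupOf K).out)⁻¹ * t : K) : G) = t
      simp
  refine Fintype.sum_bijective φ hφ _ _ ?_
  rintro ⟨c, x⟩
  rfl

theorem act_out {H K : Subgroup G} {w : A} (hw : ∀ d ∈ H, α d w = w) (y : K) :
    α (((QuotientGroup.mk y : K ⧸ H.subgroupOf K).out : K) : G) w = α (y : G) w := by
  obtain ⟨h, hh⟩ := QuotientGroup.mk_out_eq_mul (H.subgroupOf K) y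
  rw [hh]
  show α ((y : G) * ((h : K) : G)) w = _
  rw [act_mul, hw _ (Subgroup.mem_subgroupOf.mp h.2)]

theorem act_rt [Finite G] {H K : Subgroup G} {w : A} (hw : ∀ d ∈ H, α d w = w) {y : G} (hy : y ∈ K) :
    α y (rt α H K w) = rt α H K w := by
  classical
  have := Fintype.ofFinite (K ⧸ H.subgroupOf K)
  rw [rt_eq, map_sum]
  refine Eq.trans ?_ (Equiv.sum_comp (MulAction.toPerm (⟨y, hy⟩ : K)) (fun c : K ⧸ H.subgroupOf K => α ((c.out : K) : G) w))
  refine Finset.sum_congr rfl fun c _ => ?_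
  rw [← act_mul]
  have h1 : (MulAction.toPerm (⟨y, hy⟩ : K)) c = QuotientGroup.mk ((⟨y, hy⟩ : K) * c.out) := by
    change (⟨y, hy⟩ : K) • c = _
    conv_lhs => rw [← QuotientGroup.out_eq' c]
    rfl
  rw [h1, act_out α hw]
  rfl

/-- Mackey decomposition, `D` meeting its conjugates outside `T` trivially as far as `κ` can see -/
theorem mackey [Finite G] {D T : Subgroup G} (hDT : D ≤ T) {w : A} (hw : ∀ d ∈ D, α d w = w)
    (κ : A →+ A) (hκ : ∀ d ∈ D, ∀ a, κ (α d a) = α d (κ a))
    (hbad : ∀ g ∉ T, (∀ x ∈ D, g⁻¹ * x * g ∈ D → x = 1) ∨ κ (α g w) = 0) :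
    ∃ Φ : A, (∀ g, α g Φ = Φ) ∧ ∃ h : A, κ Φ = κ (rt α D T w) + pt α D (κ h) := by
  classical
  have := Fintype.ofFinite (G ⧸ D)
  have := Fintype.ofFinite D
  have := Fintype.ofFinite (T ⧸ D.subgroupOf T)
  let B : G ⧸ D → A := fun q => α q.out w
  have hB : ∀ g : G, B (QuotientGroup.mk g) = α g w := by
    intro g
    obtain ⟨h, hh⟩ := QuotientGroup.mk_out_eq_mul D g
    change α ((QuotientGroup.mk g : G ⧸ D)).out w = _
    rw [hh, act_mul, hw _ h.2]
  have hB1 : ∀ (x : G) (q : G ⧸ D), B (x • q) = α x (B q) := by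
    intro x q
    induction q using QuotientGroup.induction_on with
    | H g =>
      change B (QuotientGroup.mk (x * g)) = α x (B (QuotientGroup.mk g))
      rw [hB, hB, act_mul]
  -- the three parts
  let PT : G ⧸ D → Prop := fun q => q.out ∈ T
  have hPT : ∀ g : G, PT (QuotientGroup.mk g) ↔ g ∈ T := by
    intro g
    obtain ⟨h, hh⟩ := QuotientGroup.mk_out_eq_mul D g
    change (QuotientGroup.mk g : G ⧸ D).out ∈ T ↔ _
    rw [hh]
    exact Subgroup.mul_mem_cancel_right T (hDT h.2)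
  let Fr : G → Prop := fun g => ∀ x ∈ D, g⁻¹ * x * g ∈ D → x = 1
  have hFr1 : ∀ g, ∀ d ∈ D, Fr g → Fr (g * d) := by
    intro g d hd hg x hx hx'
    apply hg x hx
    have : g⁻¹ * x * g = d * ((g * d)⁻¹ * x * (g * d)) * d⁻¹ := by group
    rw [this]
    exact D.mul_mem (D.mul_mem hd hx') (D.inv_mem hd)
  have hFr2 : ∀ g, ∀ d ∈ D, Fr g → Fr (d * g) := by
    intro g d hd hg x hx hx'
    have h1 := hg (d⁻¹ * x * d) (D.mul_mem (D.mul_mem (D.inv_mem hd) hx) hd) (by
      have : g⁻¹ * (d⁻¹ * x * d) * g = (d * g)⁻¹ * x * (d * g) := by group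
      rw [this]; exact hx')
    have : x = d * (d⁻¹ * x * d) * d⁻¹ := by group
    rw [this, h1]; group
  let PF : G ⧸ D → Prop := fun q => q.out ∉ T ∧ Fr q.out
  have hPF : ∀ g : G, PF (QuotientGroup.mk g) ↔ (g ∉ T ∧ Fr g) := by
    intro g
    have h1 := hPT g
    obtain ⟨h, hh⟩ := QuotientGroup.mk_out_eq_mul D g
    change ((QuotientGroup.mk g : G ⧸ D).out ∉ T ∧ Fr (QuotientGroup.mk g : G ⧸ D).out) ↔ _
    have h2 : (QuotientGroup.mk g : G ⧸ D).out ∈ T ↔ g ∈ T := h1
    rw [h2, hh]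
    refine and_congr_right fun _ => ⟨fun h3 => ?_, fun h3 => hFr1 _ _ h.2 h3⟩
    have := hFr1 _ _ (D.inv_mem h.2) h3
    rwa [mul_assoc, mul_inv_cancel, mul_one] at this
  let X := {q : G ⧸ D // PF q}
  have hstab : ∀ (x : D) (q : G ⧸ D), PF q → PF ((x : G) • q) := by
    intro x q
    induction q using QuotientGroup.induction_on with
    | H g =>
      intro h
      change PF (QuotientGroup.mk ((x : G) * g))
      rw [hPF] at h ⊢
      refine ⟨fun h1 => h.1 ((Subgroup.mul_mem_cancel_left T (hDT x.2)).1 h1), hFr2 _ _ x.2 h.2⟩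
  let act : MulAction D X :=
    { smul := fun x q => ⟨(x : G) • q.1, hstab x q.1 q.2⟩
      one_smul := fun q => Subtype.ext (one_smul G q.1)
      mul_smul := fun x y q => Subtype.ext (mul_smul (x : G) (y : G) q.1) }
  obtain ⟨h, hh⟩ := sum_free (X := X) (fun x : D => α (x : G)) (fun q => B q.1) (by
      intro x q
      exact hB1 x q.1) (by
      intro x q hxq
      have h1 : (x : G) • q.1 = q.1 := congrArg Subtype.val hxq
      obtain ⟨q, hq⟩ := q
      induction q using QuotientGroup.induction_on with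
      | H g =>
        have hq' : PF (QuotientGroup.mk g) := hq
        rw [hPF] at hq'
        have h2 := hq'.2 x x.2 (by
          have h3 : (QuotientGroup.mk ((x : G) * g) : G ⧸ D) = QuotientGroup.mk g := h1
          rw [QuotientGroup.eq] at h3
          have h4 : g⁻¹ * x * g = (((x : G) * g)⁻¹ * g)⁻¹ := by group
          rw [h4]; exact D.inv_mem h3)
        exact Subtype.ext h2)
  have hT : ∑ q ∈ Finset.univ.filter (fun q : G ⧸ D => PT q), B q = rt α D T w := by
    rw [rt_eq]
    symm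
    refine Finset.sum_bij (fun c _ => (QuotientGroup.mk ((c.out : T) : G) : G ⧸ D)) ?_ ?_ ?_ ?_
    · intro c _
      rw [Finset.mem_filter]
      exact ⟨Finset.mem_univ _, (hPT _).2 c.out.2⟩
    · intro c _ c' _ hc
      rw [QuotientGroup.eq] at hc
      rw [← QuotientGroup.out_eq' c, ← QuotientGroup.out_eq' c']
      apply QuotientGroup.eq.2
      rw [Subgroup.mem_subgroupOf]
      exact hc
    · intro q hq
      rw [Finset.mem_filter] at hq
      refine ⟨QuotientGroup.mk ⟨q.out, hq.2⟩, Finset.mem_univ _, ?_⟩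
      conv_rhs => rw [← QuotientGroup.out_eq' q]
      apply QuotientGroup.eq.2
      have := QuotientGroup.eq.1 (QuotientGroup.out_eq' (QuotientGroup.mk (⟨q.out, hq.2⟩ : T) : T ⧸ D.subgroupOf T))
      rw [Subgroup.mem_subgroupOf] at this
      exact this
    · intro c _
      exact (hB _).symm
  refine ⟨∑ q : G ⧸ D, B q, ?_, h, ?_⟩
  · intro g
    rw [map_sum]
    refine Eq.trans ?_ (Equiv.sum_comp (MulAction.toPerm g) (fun q : G ⧸ D => B q))
    exact Finset.sum_congr rfl fun q _ => (hB1 g q).symm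
  · rw [← Finset.sum_filter_add_sum_filter_not Finset.univ (fun q : G ⧸ D => PT q), map_add, hT]
    congr 1
    have h1 : ∑ q ∈ Finset.univ.filter (fun q : G ⧸ D => ¬ PT q), B q =
        ∑ q ∈ Finset.univ.filter (fun q : G ⧸ D => PF q), B q +
        ∑ q ∈ Finset.univ.filter (fun q : G ⧸ D => ¬ PT q ∧ ¬ PF q), B q := by
      rw [← Finset.sum_filter_add_sum_filter_not (Finset.univ.filter (fun q : G ⧸ D => ¬ PT q)) (fun q => PF q),
        Finset.filter_filter, Finset.filter_filter]
      congr 2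
      ext q
      simp only [Finset.mem_filter, Finset.mem_univ, true_and]
      exact ⟨fun h => h.2, fun h => ⟨h.1, h⟩⟩
    rw [h1, map_add]
    have h2 : κ (∑ q ∈ Finset.univ.filter (fun q : G ⧸ D => ¬ PT q ∧ ¬ PF q), B q) = 0 := by
      rw [map_sum]
      apply Finset.sum_eq_zero
      intro q hq
      rw [Finset.mem_filter] at hq
      obtain ⟨-, hq1, hq2⟩ := hq
      rcases hbad q.out hq1 with h | h
      · exact absurd ⟨hq1, h⟩ hq2
      · exact h
    have h3 : ∑ q ∈ Finset.univ.filter (fun q : G ⧸ D => PF q), B q = pt α D h := by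
      rw [pt_eq]
      refine Eq.trans ?_ hh
      exact Finset.sum_subtype (Finset.univ.filter (fun q : G ⧸ D => PF q)) (p := fun q => PF q) (by intro q; simp) B
    rw [h2, h3, add_zero, pt_eq, pt_eq, map_sum]
    exact Finset.sum_congr rfl fun x _ => hκ x x.2 h

end Abs

end Cfsg.Agent.Lib.CycG1
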