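import Cfsg.Agent.Lib.CycG1

set_option autoImplicit false
set_option linter.all false

/-!
# Homomorphisms of representations: extending homomorphisms of `T` to `G` (helper78)
-/

namespace Cfsg.Agent.Lib.CycG2

open Cfsg.Agent.Lib.BrauerMap Cfsg.Agent.Lib.PairMax Cfsg.Agent.Lib.CycG1

section

variable {K : Type*} [Field K] {G : Type*} [Group G]
variable {V W X : Type*} [AddCommGroup V] [Module K V] [AddCommGroup W] [Module K W]
  [AddCommGroup X] [Module K X]

/-- the operator of an element of the group algebra -/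
noncomputable def op (ρ : G →* Module.End K V) : MonoidAlgebra K G →ₐ[K] Module.End K V :=
  Representation.asAlgebraHom (ρ : Representation K G V)

theorem op_single (ρ : G →* Module.End K V) (g : G) (c : K) :
    op ρ (MonoidAlgebra.single g c) = c • ρ g :=
  Representation.asAlgebraHom_single ρ g c

theorem op_apply [Fintype G] (ρ : G →* Module.End K V) (a : MonoidAlgebra K G) (v : V) :
    op ρ a v = ∑ g : G, a.coeff g • ρ g v := by
  classical
  have h1 : a = ∑ g : G, MonoidAlgebra.single g (a.coeff g) := by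
    apply ext_coeff
    intro x
    rw [sum_coeff, Finset.sum_eq_single x]
    · simp
    · intro y _ hy
      simp [hy]
    · intro h; exact absurd (Finset.mem_univ _) h
  conv_lhs => rw [h1]
  rw [map_sum, LinearMap.sum_apply]
  exact Finset.sum_congr rfl fun g _ => by rw [op_single]; rfl

theorem op_cj (ρ : G →* Module.End K V) (g : G) (a : MonoidAlgebra K G) :
    op ρ (cj g a) = ρ g * op ρ a * ρ g⁻¹ := by
  induction a using MonoidAlgebra.induction_on with
  | of x =>
    have h1 : (MonoidAlgebra.of K G x) = MonoidAlgebra.single x 1 := rfl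
    have h2 : cj g (MonoidAlgebra.single x (1 : K)) = MonoidAlgebra.single (g * x * g⁻¹) 1 := by
      apply ext_coeff
      intro y
      rw [cj_coeff]
      by_cases h : y = g * x * g⁻¹
      · subst h
        have : g⁻¹ * (g * x * g⁻¹) * g = x := by group
        rw [this]; simp
      · have h3 : g⁻¹ * y * g ≠ x := by
          rintro rfl
          apply h; group
        simp [Ne.symm h, Ne.symm h3]
    rw [h1, h2, op_single, op_single, one_smul, one_smul, ← map_mul, ← map_mul]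
  | add a b ha hb =>
    rw [map_add, map_add, ha, hb, map_add]
    noncomm_ring
  | smul r a ha =>
    rw [map_smul, map_smul, ha, map_smul]
    rw [mul_smul_comm, smul_mul_assoc]

/-- conjugation action on homomorphisms -/
def cjH (ρ : G →* Module.End K V) (σ : G →* Module.End K W) : G →* AddMonoid.End (V →ₗ[K] W) where
  toFun g :=
    { toFun := fun φ => (σ g).comp (φ.comp (ρ g⁻¹))
      map_zero' := by simp
      map_add' := fun a b => by rw [LinearMap.add_comp, LinearMap.comp_add] }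
  map_one' := by
    apply AddMonoidHom.ext
    intro φ
    change (σ 1).comp (φ.comp (ρ 1⁻¹)) = φ
    rw [inv_one, map_one, map_one]; rfl
  map_mul' a b := by
    apply AddMonoidHom.ext
    intro φ
    change (σ (a * b)).comp (φ.comp (ρ (a * b)⁻¹)) = (σ a).comp (((σ b).comp (φ.comp (ρ b⁻¹))).comp (ρ a⁻¹))
    rw [mul_inv_rev, map_mul, map_mul]
    rfl

theorem cjH_apply (ρ : G →* Module.End K V) (σ : G →* Module.End K W) (g : G) (φ : V →ₗ[K] W) :
    cjH ρ σ g φ = (σ g).comp (φ.comp (ρ g⁻¹)) := rfl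

theorem cjH_fix {ρ : G →* Module.End K V} {σ : G →* Module.End K W} {g : G} {φ : V →ₗ[K] W} :
    cjH ρ σ g φ = φ ↔ (σ g).comp φ = φ.comp (ρ g) := by
  rw [cjH_apply]
  constructor
  · intro h
    conv_rhs => rw [← h]
    rw [LinearMap.comp_assoc, LinearMap.comp_assoc]
    have : (ρ g⁻¹).comp (ρ g) = LinearMap.id := by
      change ρ g⁻¹ * ρ g = 1
      rw [← map_mul, inv_mul_cancel, map_one]
    rw [this]; rfl
  · intro h
    rw [← LinearMap.comp_assoc, h, LinearMap.comp_assoc]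
    have : (ρ g).comp (ρ g⁻¹) = LinearMap.id := by
      change ρ g * ρ g⁻¹ = 1
      rw [← map_mul, mul_inv_cancel, map_one]
    rw [this]; rfl

/-- `T`-homomorphism -/
def IsHom (T : Subgroup G) (ρ : G →* Module.End K V) (σ : G →* Module.End K W) (φ : V →ₗ[K] W) : Prop :=
  ∀ t ∈ T, (σ t).comp φ = φ.comp (ρ t)

theorem isHom_iff {T : Subgroup G} {ρ : G →* Module.End K V} {σ : G →* Module.End K W} {φ : V →ₗ[K] W} :
    IsHom T ρ σ φ ↔ ∀ t ∈ T, cjH ρ σ t φ = φ := by
  constructor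
  · intro h t ht; exact cjH_fix.2 (h t ht)
  · intro h t ht; exact cjH_fix.1 (h t ht)

/-- conjugation of a product with an element of the group algebra -/
theorem cjH_op_comp (ρ : G →* Module.End K V) (σ : G →* Module.End K W) (g : G) (c : MonoidAlgebra K G)
    (φ : V →ₗ[K] W) : cjH ρ σ g ((op σ c).comp φ) = (op σ (cj g c)).comp (cjH ρ σ g φ) := by
  rw [cjH_apply, cjH_apply, op_cj]
  apply LinearMap.ext
  intro v
  change σ g (op σ c (φ (ρ g⁻¹ v))) = σ g (op σ c (σ g⁻¹ (σ g (φ (ρ g⁻¹ v)))))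
  have h1 : σ g⁻¹ (σ g (φ (ρ g⁻¹ v))) = φ (ρ g⁻¹ v) := by
    rw [← Module.End.mul_apply, ← map_mul, inv_mul_cancel, map_one]; rfl
  rw [h1]

theorem cjH_comp_op (ρ : G →* Module.End K V) (σ : G →* Module.End K W) (g : G) (c : MonoidAlgebra K G)
    (φ : V →ₗ[K] W) : cjH ρ σ g (φ.comp (op ρ c)) = (cjH ρ σ g φ).comp (op ρ (cj g c)) := by
  rw [cjH_apply, cjH_apply, op_cj]
  apply LinearMap.ext
  intro v
  change σ g (φ (op ρ c (ρ g⁻¹ v))) = σ g (φ (ρ g⁻¹ (ρ g (op ρ c (ρ g⁻¹ v)))))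
  have h1 : ρ g⁻¹ (ρ g (op ρ c (ρ g⁻¹ v))) = op ρ c (ρ g⁻¹ v) := by
    rw [← Module.End.mul_apply, ← map_mul, inv_mul_cancel, map_one]; rfl
  rw [h1]

/-- the relative trace of `c φ` -/
theorem rt_op_comp [Finite G] {D T : Subgroup G} (ρ : G →* Module.End K V) (σ : G →* Module.End K W)
    (c : MonoidAlgebra K G) {φ : V →ₗ[K] W} (hφ : ∀ t ∈ T, cjH ρ σ t φ = φ) :
    rt (cjH ρ σ) D T ((op σ c).comp φ) = (op σ (tr D T c)).comp φ := by
  classical
  have := Fintype.ofFinite (T ⧸ D.subgroupOf T)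
  rw [rt_eq, tr, finsum_eq_sum_of_fintype, map_sum]
  apply LinearMap.ext
  intro v
  rw [LinearMap.sum_apply, LinearMap.comp_apply, LinearMap.sum_apply]
  refine Finset.sum_congr rfl fun x _ => ?_
  rw [cjH_op_comp, hφ _ x.out.2]
  rfl

theorem comp_pt [Finite G] {D : Subgroup G} (ρ : G →* Module.End K V) (σ : G →* Module.End K W)
    {c : MonoidAlgebra K G} (hc : c ∈ fixAlg K D) (h : V →ₗ[K] W) :
    (op σ c).comp (pt (cjH ρ σ) D h) = pt (cjH ρ σ) D ((op σ c).comp h) := by
  classical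
  have := Fintype.ofFinite D
  rw [pt_eq, pt_eq]
  apply LinearMap.ext
  intro v
  rw [LinearMap.comp_apply, LinearMap.sum_apply, map_sum, LinearMap.sum_apply]
  refine Finset.sum_congr rfl fun x _ => ?_
  rw [cjH_op_comp, hc _ x.2]
  rfl

/-- **Extension of homomorphisms.** -/
theorem extend [Finite G] {D T : Subgroup G} (hDT : D ≤ T) {f c : MonoidAlgebra K G}
    (hc : c ∈ fixAlg K D) (htr : tr D T c = f) (hff : f * f = f) (hfT : f ∈ fixAlg K T)
    (hsep : ∀ g ∉ T, (∀ x ∈ D, g⁻¹ * x * g ∈ D → x = 1) ∨ cj g f * f = 0)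
    (ρ : G →* Module.End K V) (σ : G →* Module.End K W) {φ : V →ₗ[K] W} (hφ : IsHom T ρ σ φ)
    (hf1 : (op σ f).comp φ = φ) (hf2 : φ.comp (op ρ f) = φ) :
    ∃ Φ : V →ₗ[K] W, (∀ g, (σ g).comp Φ = Φ.comp (ρ g)) ∧ ∃ h : V →ₗ[K] W,
      φ = (op σ f).comp (Φ.comp (op ρ f)) + pt (cjH ρ σ) T h := by
  classical
  rw [isHom_iff] at hφ
  let κ : (V →ₗ[K] W) →+ (V →ₗ[K] W) :=
    { toFun := fun a => (op σ f).comp (a.comp (op ρ f))
      map_zero' := by simp
      map_add' := fun a b => by rw [LinearMap.add_comp, LinearMap.comp_add] }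
  have hκ0 : ∀ a, κ a = (op σ f).comp (a.comp (op ρ f)) := fun a => rfl
  have hκT : ∀ t ∈ T, ∀ a, κ (cjH ρ σ t a) = cjH ρ σ t (κ a) := by
    intro t ht a
    rw [hκ0, hκ0, cjH_op_comp, cjH_comp_op, hfT t ht]
  have hw : ∀ d ∈ D, cjH ρ σ d ((op σ c).comp φ) = (op σ c).comp φ := by
    intro d hd
    rw [cjH_op_comp, hc d hd, hφ d (hDT hd)]
  obtain ⟨Φ, hΦ, h, hh⟩ := mackey (cjH ρ σ) hDT hw κ (fun d hd a => hκT d (hDT hd) a) (by
    intro g hg
    rcases hsep g hg with h | h
    · exact Or.inl h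
    · right
      rw [hκ0]
      have h1 : (op σ c).comp φ = ((op σ c).comp φ).comp (op ρ f) := by
        rw [LinearMap.comp_assoc, hf2]
      rw [h1, cjH_comp_op, LinearMap.comp_assoc _ (op ρ (cj g f))]
      have h2 : (op ρ (cj g f)).comp (op ρ f) = 0 := by
        change op ρ (cj g f) * op ρ f = 0
        rw [← map_mul, h, map_zero]
      rw [h2, LinearMap.comp_zero, LinearMap.comp_zero])
  rw [rt_op_comp ρ σ c hφ, htr, hf1] at hh
  have hκφ : κ φ = φ := by rw [hκ0, hf2, hf1]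
  rw [hκφ] at hh
  -- the difference
  set r : V →ₗ[K] W := φ - κ Φ with hr
  have hrT : ∀ t ∈ T, cjH ρ σ t r = r := by
    intro t ht
    rw [hr, map_sub, hφ t ht, ← hκT t ht, hΦ]
  have hrf : (op σ f).comp r = r := by
    rw [hr, LinearMap.comp_sub, hf1, hκ0, ← LinearMap.comp_assoc]
    have : (op σ f).comp (op σ f) = op σ f := by
      change op σ f * op σ f = op σ f
      rw [← map_mul, hff]
    rw [this]
  have hr1 : r = - pt (cjH ρ σ) D (κ h) := by
    rw [hr, hh]; abel
  refine ⟨Φ, fun g => cjH_fix.1 (hΦ g), - ((op σ c).comp (κ h)), ?_⟩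
  have h2 : r = pt (cjH ρ σ) T (- ((op σ c).comp (κ h))) := by
    have h3 : r = (op σ (tr D T c)).comp r := by rw [htr, hrf]
    rw [h3, ← rt_op_comp ρ σ c hrT]
    conv_lhs => rw [hr1]
    rw [LinearMap.comp_neg, comp_pt ρ σ hc, rt_neg, rt_pt _ hDT, pt_neg]
  rw [← h2, hr, hκ0]
  abel

end

end Cfsg.Agent.Lib.CycG2
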