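import Cfsg.Agent.Lib.CycG2

set_option autoImplicit false
set_option linter.all false

/-!
# Non-projective homomorphisms from representations of a subgroup (helper78)
-/

namespace Cfsg.Agent.Lib.CycG3

open Cfsg.Agent.Lib.BrauerMap Cfsg.Agent.Lib.PairMax Cfsg.Agent.Lib.CycG1 Cfsg.Agent.Lib.CycG2
open Module Cfsg.Agent.Lib.ModRep
open Cfsg.Agent.Lib.DefOneMod (quotRep quotRep_mk conjRep indSpace indRep indRep_apply)

section

variable {K : Type*} [Field K] {G : Type*} [Group G] {T : Subgroup G}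
variable {V : Type*} [AddCommGroup V] [Module K V] {E : Type*} [AddCommGroup E] [Module K E]

/-- the operator on a representation of `T` of an element of `K[G]` -/
noncomputable def opT (σ : T →* Module.End K E) (a : MonoidAlgebra K G) : Module.End K E :=
  ∑ᶠ t : T, a.coeff (t : G) • σ t

theorem opT_eq [Fintype T] (σ : T →* Module.End K E) (a : MonoidAlgebra K G) :
    opT σ a = ∑ t : T, a.coeff (t : G) • σ t := by
  rw [opT, finsum_eq_sum_of_fintype]

theorem opT_apply [Fintype T] (σ : T →* Module.End K E) (a : MonoidAlgebra K G) (e : E) :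
    opT σ a e = ∑ t : T, a.coeff (t : G) • σ t e := by
  rw [opT_eq, LinearMap.sum_apply]; rfl

theorem opT_mul [Finite G] (σ : T →* Module.End K E) (a : MonoidAlgebra K G) {b : MonoidAlgebra K G}
    (hb : b ∈ suppAlg K T) : opT σ (a * b) = opT σ a * opT σ b := by
  classical
  have := Fintype.ofFinite G
  have := Fintype.ofFinite T
  rw [opT_eq, opT_eq, opT_eq, Finset.mul_sum]
  have h1 : ∀ t : T, (a * b).coeff (t : G) = ∑ s : T, a.coeff ((t * s⁻¹ : T) : G) * b.coeff (s : G) := by
    intro t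
    rw [mul_coeff']
    refine Eq.trans ?_ (Finset.sum_subtype (Finset.univ.filter (fun s : G => s ∈ T)) (p := fun s => s ∈ T) (by intro s; simp)
      (fun s : G => a.coeff ((t : G) * s⁻¹) * b.coeff s))
    rw [Finset.sum_filter]
    refine Finset.sum_congr rfl fun s _ => ?_
    split_ifs with hs
    · rfl
    · rw [hb s hs, mul_zero]
  simp only [h1, Finset.sum_smul]
  rw [Finset.sum_comm]
  refine Finset.sum_congr rfl fun s _ => ?_
  rw [Finset.sum_mul, ← Equiv.sum_comp (Equiv.mulRight s)]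
  refine Finset.sum_congr rfl fun t _ => ?_
  have h2 : (Equiv.mulRight s) t = t * s := rfl
  rw [h2, mul_assoc, mul_inv_cancel, mul_one, map_mul, smul_mul_smul_comm]

theorem op_comp_hom [Finite G] {ρ : G →* Module.End K V} {σ : T →* Module.End K E} {ι : E →ₗ[K] V}
    (hι : ∀ (t : T) x, ι (σ t x) = ρ t (ι x)) {a : MonoidAlgebra K G} (ha : a ∈ suppAlg K T) (e : E) :
    op ρ a (ι e) = ι (opT σ a e) := by
  classical
  have := Fintype.ofFinite G
  have := Fintype.ofFinite T
  rw [op_apply, opT_apply, map_sum]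
  rw [← Finset.sum_filter_add_sum_filter_not Finset.univ (fun g : G => g ∈ T)]
  have h1 : ∑ g ∈ Finset.univ.filter (fun g : G => g ∉ T), a.coeff g • ρ g (ι e) = 0 := by
    apply Finset.sum_eq_zero
    intro g hg
    rw [Finset.mem_filter] at hg
    rw [ha g hg.2, zero_smul]
  rw [h1, add_zero, Finset.sum_subtype (Finset.univ.filter (fun g : G => g ∈ T)) (p := fun g => g ∈ T)
    (by intro g; simp)]
  refine Finset.sum_congr rfl fun t _ => ?_
  rw [map_smul, hι]

/-- projective homomorphisms -/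
def Prj (ρ : G →* Module.End K V) (σ : T →* Module.End K E) (ι : E →ₗ[K] V) : Prop :=
  ∃ h : E →ₗ[K] V, ∀ e, ι e = ∑ᶠ t : T, ρ t (h (σ t⁻¹ e))

/-- `ι` is a `T`-homomorphism. -/
def THom (ρ : G →* Module.End K V) (σ : T →* Module.End K E) (ι : E →ₗ[K] V) : Prop :=
  ∀ (t : T) (x : E), ι (σ t x) = ρ t (ι x)

/-- there is a non-projective homomorphism -/
def HasN (ρ : G →* Module.End K V) (σ : T →* Module.End K E) : Prop :=
  ∃ ι : E →ₗ[K] V, THom ρ σ ι ∧ ¬ Prj ρ σ ι

/-- trace homomorphism -/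
noncomputable def trH (ρ : G →* Module.End K V) (σ : T →* Module.End K E) (h : E →ₗ[K] V) : E →ₗ[K] V :=
  ∑ᶠ t : T, (ρ (t : G)).comp (h.comp (σ t⁻¹))

theorem trH_apply [Fintype T] (ρ : G →* Module.End K V) (σ : T →* Module.End K E) (h : E →ₗ[K] V) (e : E) :
    trH ρ σ h e = ∑ t : T, ρ t (h (σ t⁻¹ e)) := by
  rw [trH, finsum_eq_sum_of_fintype, LinearMap.sum_apply]; rfl

theorem prj_iff [Finite G] (ρ : G →* Module.End K V) (σ : T →* Module.End K E) (ι : E →ₗ[K] V) :
    Prj ρ σ ι ↔ ∃ h, ι = trH ρ σ h := by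
  classical
  have := Fintype.ofFinite T
  unfold Prj
  refine exists_congr fun h => ?_
  rw [LinearMap.ext_iff]
  refine forall_congr' fun e => ?_
  rw [trH_apply, finsum_eq_sum_of_fintype]

theorem trH_thom [Finite G] (ρ : G →* Module.End K V) (σ : T →* Module.End K E) (h : E →ₗ[K] V) :
    THom ρ σ (trH ρ σ h) := by
  classical
  have := Fintype.ofFinite T
  intro t x
  rw [trH_apply, trH_apply, map_sum, ← Equiv.sum_comp (Equiv.mulLeft t)]
  refine Finset.sum_congr rfl fun s _ => ?_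
  have h1 : (Equiv.mulLeft t) s = t * s := rfl
  have h2 : σ (t * s)⁻¹ (σ t x) = σ s⁻¹ x := by
    rw [← Module.End.mul_apply, ← map_mul]
    congr 2; group
  have h3 : ρ ((t * s : T) : G) = ρ t * ρ s := by rw [← map_mul]; rfl
  rw [h1, h2, h3]; rfl

theorem half_exact [Finite G] (ρ : G →* Module.End K V) (σ : T →* Module.End K E)
    (hN : HasN ρ σ) (W : Submodule K V) (hW : Inv ρ W) :
    HasN (subrep ρ W hW) σ ∨ HasN (quotRep ρ W hW) σ := by
  classical
  have := Fintype.ofFinite T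
  obtain ⟨ι, hι, hr⟩ := hN
  have hq : THom (quotRep ρ W hW) σ (W.mkQ ∘ₗ ι) := by
    intro t x
    rw [LinearMap.comp_apply, LinearMap.comp_apply, hι, quotRep_mk]
  by_cases hcase : Prj (quotRep ρ W hW) σ (W.mkQ ∘ₗ ι)
  swap
  · exact Or.inr ⟨_, hq, hcase⟩
  left
  rw [prj_iff] at hcase
  obtain ⟨hb, hhb⟩ := hcase
  obtain ⟨s, hs⟩ := LinearMap.exists_rightInverse_of_surjective W.mkQ (LinearMap.range_eq_top.2 W.mkQ_surjective)
  set L := trH ρ σ (s ∘ₗ hb) with hL
  have hLT : THom ρ σ L := trH_thom ρ σ _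
  have hLq : ∀ x, W.mkQ (L x) = W.mkQ (ι x) := by
    intro x
    have h1 := LinearMap.congr_fun hhb x
    rw [LinearMap.comp_apply] at h1
    rw [h1, trH_apply, trH_apply, map_sum]
    refine Finset.sum_congr rfl fun t _ => ?_
    rw [← quotRep_mk ρ W hW]
    have h2 : W.mkQ ((s ∘ₗ hb) (σ t⁻¹ x)) = hb (σ t⁻¹ x) := LinearMap.congr_fun hs (hb (σ t⁻¹ x))
    rw [h2]
  have hmem : ∀ x, (ι - L) x ∈ W := by
    intro x
    rw [LinearMap.sub_apply, ← Submodule.Quotient.mk_eq_zero, Submodule.Quotient.mk_sub]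
    have := hLq x
    rw [Submodule.mkQ_apply, Submodule.mkQ_apply] at this
    rw [this, sub_self]
  refine ⟨(ι - L).codRestrict W hmem, ?_, ?_⟩
  · intro t x
    apply Subtype.ext
    change ι (σ t x) - L (σ t x) = ρ t (ι x - L x)
    rw [hι, hLT, map_sub]
  · intro hcon
    rw [prj_iff] at hcon
    obtain ⟨h', hh'⟩ := hcon
    apply hr
    rw [prj_iff]
    refine ⟨W.subtype ∘ₗ h' + s ∘ₗ hb, ?_⟩
    apply LinearMap.ext
    intro x
    have h1 : ((trH (subrep ρ W hW) σ h' x : W) : V) = ι x - L x := by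
      rw [← hh']; rfl
    have h2 : ((trH (subrep ρ W hW) σ h' x : W) : V) = trH ρ σ (W.subtype ∘ₗ h') x := by
      rw [trH_apply, trH_apply, AddSubmonoidClass.coe_finsetSum]
      rfl
    have h3 : trH ρ σ (W.subtype ∘ₗ h' + s ∘ₗ hb) x = trH ρ σ (W.subtype ∘ₗ h') x + L x := by
      rw [hL, trH_apply, trH_apply, trH_apply, ← Finset.sum_add_distrib]
      exact Finset.sum_congr rfl fun t _ => by rw [LinearMap.add_apply, map_add]
    rw [h3, ← h2, h1]
    exact (sub_add_cancel _ _).symm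

theorem hasN_conj [Finite G] {V' : Type*} [AddCommGroup V'] [Module K V'] (e : V ≃ₗ[K] V')
    {ρ : G →* Module.End K V} {σ : T →* Module.End K E} (hN : HasN ρ σ) : HasN (conjRep e ρ) σ := by
  classical
  have := Fintype.ofFinite T
  obtain ⟨ι, hι, hr⟩ := hN
  refine ⟨e.toLinearMap ∘ₗ ι, ?_, ?_⟩
  · intro t x
    change e (ι (σ t x)) = e (ρ t (e.symm (e (ι x))))
    rw [hι, e.symm_apply_apply]
  · intro hcon
    apply hr
    rw [prj_iff] at hcon ⊢
    obtain ⟨h, hh⟩ := hcon
    refine ⟨e.symm.toLinearMap ∘ₗ h, ?_⟩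
    apply LinearMap.ext
    intro x
    apply e.injective
    have h1 := LinearMap.congr_fun hh x
    change e (ι x) = _ at h1
    rw [h1, trH_apply, trH_apply, map_sum]
    rfl

theorem op_sub [Finite G] (ρ : G →* Module.End K V) (W : Submodule K V) (h : Inv ρ W) (a : MonoidAlgebra K G) (w : W) :
    ((op (subrep ρ W h) a w : W) : V) = op ρ a w := by
  classical
  have := Fintype.ofFinite G
  rw [op_apply, op_apply, AddSubmonoidClass.coe_finsetSum]
  rfl

theorem op_quot [Finite G] (ρ : G →* Module.End K V) (W : Submodule K V) (h : Inv ρ W) (a : MonoidAlgebra K G) (v : V) :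
    op (quotRep ρ W h) a (W.mkQ v) = W.mkQ (op ρ a v) := by
  classical
  have := Fintype.ofFinite G
  rw [op_apply, op_apply, map_sum]
  rfl

theorem op_conj [Finite G] {V' : Type*} [AddCommGroup V'] [Module K V'] (e : V ≃ₗ[K] V')
    (ρ : G →* Module.End K V) (a : MonoidAlgebra K G) (v : V) :
    op (conjRep e ρ) a (e v) = e (op ρ a v) := by
  classical
  have := Fintype.ofFinite G
  rw [op_apply, op_apply, map_sum]
  refine Finset.sum_congr rfl fun g _ => ?_
  rw [map_smul]
  change _ • e (ρ g (e.symm (e v))) = _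
  rw [e.symm_apply_apply]

theorem hasN_fin [Finite G] [FiniteDimensional K V] {ρ : G →* Module.End K V} {σ : T →* Module.End K E}
    {a : MonoidAlgebra K G} (ha : op ρ a = 1)
    (hN : HasN ρ σ) : ∃ ρ'' : G →* Module.End K (Fin (finrank K V) → K), HasN ρ'' σ ∧ op ρ'' a = 1 := by
  let e : V ≃ₗ[K] (Fin (finrank K V) → K) := LinearEquiv.ofFinrankEq V (Fin (finrank K V) → K)
      (by rw [Module.finrank_fin_fun])
  refine ⟨_, hasN_conj e hN, ?_⟩
  apply LinearMap.ext
  intro v
  obtain ⟨w, rfl⟩ := e.surjective v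
  rw [op_conj, ha]; rfl

theorem exists_simple_of_hasN [Finite G] [FiniteDimensional K V] (ρ : G →* Module.End K V)
    (σ : T →* Module.End K E) {a : MonoidAlgebra K G} (ha : op ρ a = 1) (hN : HasN ρ σ) :
    ∃ (n : ℕ) (ρ' : G →* Module.End K (Fin n → K)), Irr ρ' ∧ op ρ' a = 1 ∧ HasN ρ' σ := by
  classical
  have := Fintype.ofFinite T
  have hex : ∃ n : ℕ, ∃ ρ' : G →* Module.End K (Fin n → K), HasN ρ' σ ∧ op ρ' a = 1 := ⟨_, hasN_fin ha hN⟩
  obtain ⟨ρ', hρ', ha'⟩ := Nat.find_spec hex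
  refine ⟨_, ρ', ⟨?_, ?_⟩, ha', hρ'⟩
  · by_contra hnt
    rw [not_nontrivial_iff_subsingleton] at hnt
    obtain ⟨ι, hι, hr⟩ := hρ'
    apply hr
    rw [prj_iff]
    refine ⟨0, ?_⟩
    apply LinearMap.ext
    intro x
    exact Subsingleton.elim _ _
  · intro W hW
    by_contra hcon
    push Not at hcon
    have hfin : finrank K (Fin (Nat.find hex) → K) = Nat.find hex := Module.finrank_fin_fun K
    have hlt := Submodule.finrank_lt hcon.2
    rcases half_exact ρ' σ hρ' W hW with h | h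
    · have h1 : finrank K W < Nat.find hex := lt_of_lt_of_eq hlt hfin
      refine Nat.find_min hex h1 (hasN_fin ?_ h)
      apply LinearMap.ext
      intro w
      apply Subtype.ext
      rw [op_sub, ha']; rfl
    · have h1 : finrank K ((Fin (Nat.find hex) → K) ⧸ W) < Nat.find hex := by
        have h2 := Submodule.finrank_quotient_add_finrank W
        have h3 : 0 < finrank K W := by
          rw [Module.finrank_pos_iff]
          exact Submodule.nontrivial_iff_ne_bot.2 hcon.1
        omega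
      refine Nat.find_min hex h1 (hasN_fin ?_ h)
      apply LinearMap.ext
      intro w
      obtain ⟨v, rfl⟩ := W.mkQ_surjective w
      rw [op_quot, ha']; rfl

/-- the natural map to the induced representation -/
noncomputable def indIn (σ : T →* Module.End K E) : E →ₗ[K] indSpace σ := by
  classical
  exact
    { toFun := fun x => ⟨fun g => if h : g ∈ T then σ ⟨g, h⟩ x else 0, by
        intro n g
        beta_reduce
        by_cases hg : g ∈ T
        · have h1 : (n : G) * g ∈ T := T.mul_mem n.2 hg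
          rw [dif_pos hg, dif_pos h1, ← Module.End.mul_apply, ← map_mul]
          rfl
        · have h1 : (n : G) * g ∉ T := fun h => hg ((Subgroup.mul_mem_cancel_left T n.2).1 h)
          rw [dif_neg hg, dif_neg h1, map_zero]⟩
      map_add' := fun x y => by
        apply Subtype.ext
        funext g
        change (if h : g ∈ T then σ ⟨g, h⟩ (x + y) else 0) = (if h : g ∈ T then σ ⟨g, h⟩ x else 0) +
          (if h : g ∈ T then σ ⟨g, h⟩ y else 0)
        split_ifs
        · rw [map_add]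
        · rw [add_zero]
      map_smul' := fun c x => by
        apply Subtype.ext
        funext g
        change (if h : g ∈ T then σ ⟨g, h⟩ (c • x) else 0) = c • (if h : g ∈ T then σ ⟨g, h⟩ x else 0)
        split_ifs
        · rw [map_smul]
        · rw [smul_zero] }

theorem indIn_mem (σ : T →* Module.End K E) (x : E) {g : G} (h : g ∈ T) : (indIn σ x).1 g = σ ⟨g, h⟩ x := by
  classical
  exact dif_pos h

theorem indIn_not_mem (σ : T →* Module.End K E) (x : E) {g : G} (h : g ∉ T) : (indIn σ x).1 g = 0 := by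
  classical
  exact dif_neg h

theorem indIn_thom (σ : T →* Module.End K E) : THom (indRep σ) σ (indIn σ) := by
  intro n x
  apply Subtype.ext
  funext g
  rw [indRep_apply]
  by_cases hg : g ∈ T
  · have h1 : g * n ∈ T := T.mul_mem hg n.2
    rw [indIn_mem σ _ hg, indIn_mem σ _ h1, ← Module.End.mul_apply, ← map_mul]
    rfl
  · have h1 : g * n ∉ T := fun h => hg ((Subgroup.mul_mem_cancel_right T n.2).1 h)
    rw [indIn_not_mem σ _ hg, indIn_not_mem σ _ h1]

variable {p : ℕ} [hp : Fact p.Prime] [CharP K p]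

theorem sum_fixed_vec {p : ℕ} [Fact p.Prime] (K : Type*) [Field K] [CharP K p] {E : Type*} [AddCommGroup E] [Module K E]
    {P : Type*} [Group P] [Finite P] (hP : IsPGroup p P)
    {X : Type*} [Fintype X] [MulAction P X] (f : X → E) (hf : ∀ (u : P) (x : X), f (u • x) = f x)
    [DecidablePred (· ∈ MulAction.fixedPoints P X)] :
    ∑ x, f x = ∑ x with x ∈ MulAction.fixedPoints P X, f x := by
  rw [← sub_eq_zero, ← Module.forall_dual_apply_eq_zero_iff K]
  intro l
  rw [map_sub, map_sum, map_sum, sub_eq_zero]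
  exact sum_eq_sum_fixed (p := p) hP (fun x => l (f x)) (fun u x => by rw [hf])

/-- the operator of an element fixed by `Q` only depends on its Brauer image, if `Q` acts trivially -/
theorem opT_br [Finite G] {Q : Subgroup G} (hQp : IsPGroup p Q) (hQT : Q ≤ T) (σ : T →* Module.End K E)
    (hσ : ∀ t : T, (t : G) ∈ Q → σ t = 1) {a : MonoidAlgebra K G} (ha : a ∈ fixAlg K Q) :
    opT σ (br Q a) = opT σ a := by
  classical
  have := Fintype.ofFinite T
  apply LinearMap.ext
  intro e
  rw [opT_apply, opT_apply]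
  let act : MulAction Q T :=
    { smul := fun x t => ⟨(x : G) * t * (x : G)⁻¹, T.mul_mem (T.mul_mem (hQT x.2) t.2) (T.inv_mem (hQT x.2))⟩
      one_smul := fun t => Subtype.ext (by change (1 : G) * t * (1 : G)⁻¹ = t; group)
      mul_smul := fun x y t => Subtype.ext (by
        change ((x : G) * y) * t * ((x : G) * y)⁻¹ = (x : G) * ((y : G) * t * (y : G)⁻¹) * (x : G)⁻¹
        group) }
  have hsm : ∀ (x : Q) (t : T), ((x • t : T) : G) = (x : G) * t * (x : G)⁻¹ := fun x t => rfl
  have hfix : ∀ t : T, t ∈ MulAction.fixedPoints Q T ↔ (t : G) ∈ Subgroup.centralizer (Q : Set G) := by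
    intro t
    rw [MulAction.mem_fixedPoints, Subgroup.mem_centralizer_iff]
    constructor
    · intro h x hx
      have h1 := congrArg (fun z : T => (z : G)) (h ⟨x, hx⟩)
      change x * (t : G) * x⁻¹ = t at h1
      rw [mul_inv_eq_iff_eq_mul] at h1
      exact h1
    · intro h x
      apply Subtype.ext
      rw [hsm, mul_inv_eq_iff_eq_mul]
      exact h x x.2
  have hσc : ∀ (x : Q) (t : T), σ (x • t) = σ t := by
    intro x t
    have h1 : (x • t : T) = ⟨(x : G), hQT x.2⟩ * t * (⟨(x : G), hQT x.2⟩ : T)⁻¹ := rfl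
    have h2 : σ (⟨(x : G), hQT x.2⟩ : T) = 1 := hσ _ x.2
    have h3 : σ (⟨(x : G), hQT x.2⟩ : T)⁻¹ = 1 := hσ _ (Q.inv_mem x.2)
    rw [h1, map_mul, map_mul, h2, h3, one_mul, mul_one]
  have h4 : ∑ t : T, a.coeff (t : G) • σ t e =
      ∑ t ∈ Finset.univ.filter (fun t : T => (t : G) ∈ Subgroup.centralizer (Q : Set G)), a.coeff (t : G) • σ t e := by
    rw [sum_fixed_vec (p := p) K hQp (fun t : T => a.coeff (t : G) • σ t e) (by
      intro x t
      rw [hσc, hsm, coeff_conj ha x.2])]
    refine Finset.sum_congr ?_ fun _ _ => rfl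
    ext t
    rw [Finset.mem_filter, Finset.mem_filter, hfix]
  rw [h4, Finset.sum_filter]
  refine Finset.sum_congr rfl fun t _ => ?_
  split_ifs with ht
  · rw [br_coeff_mem ht]
  · rw [br_coeff_not_mem ht, zero_smul]

/-- traces over `T` of endomorphisms vanish if `Q` acts trivially -/
theorem trT_zero [Finite G] {Q : Subgroup G} (hQp : IsPGroup p Q) (hQT : Q ≤ T) (hQ1 : Q ≠ ⊥) (σ : T →* Module.End K E)
    (hσ : ∀ t : T, (t : G) ∈ Q → σ t = 1) [Fintype T] (h : Module.End K E) (e : E) :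
    ∑ t : T, σ t (h (σ t⁻¹ e)) = 0 := by
  classical
  let act : MulAction Q T :=
    { smul := fun x t => t * ⟨((x : G))⁻¹, hQT (Q.inv_mem x.2)⟩
      one_smul := fun t => Subtype.ext (by change (t : G) * (1 : G)⁻¹ = t; group)
      mul_smul := fun x y t => Subtype.ext (by
        change (t : G) * ((x : G) * y)⁻¹ = (t : G) * (y : G)⁻¹ * (x : G)⁻¹
        group) }
  have hsm : ∀ (x : Q) (t : T), (x • t : T) = t * ⟨((x : G))⁻¹, hQT (Q.inv_mem x.2)⟩ := fun x t => rfl
  rw [sum_fixed_vec (p := p) K hQp (fun t : T => σ t (h (σ t⁻¹ e)))]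
  · apply Finset.sum_eq_zero
    intro t ht
    exfalso
    rw [Finset.mem_filter] at ht
    apply hQ1
    rw [Subgroup.eq_bot_iff_forall]
    intro x hx
    have h1 := ht.2 ⟨x, hx⟩
    rw [hsm] at h1
    have h2 := congrArg (fun z : T => (z : G)) h1
    change (t : G) * x⁻¹ = t at h2
    simpa using h2
  · intro x t
    rw [hsm, mul_inv_rev, map_mul, map_mul]
    have h1 : σ (⟨((x : G))⁻¹, hQT (Q.inv_mem x.2)⟩ : T) = 1 := hσ _ (Q.inv_mem x.2)
    have h2 : σ (⟨((x : G))⁻¹, hQT (Q.inv_mem x.2)⟩ : T)⁻¹ = 1 := by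
      apply hσ
      change ((x : G)⁻¹)⁻¹ ∈ Q
      rw [inv_inv]; exact x.2
    rw [h1, h2, mul_one, one_mul]

theorem op_comm (ρ : G →* Module.End K V) {a : MonoidAlgebra K G} (hac : a ∈ fixAlg K (⊤ : Subgroup G)) (g : G) (v : V) :
    op ρ a (ρ g v) = ρ g (op ρ a v) := by
  have h1 := op_cj ρ g a
  rw [hac g trivial] at h1
  conv_lhs => rw [h1]
  rw [Module.End.mul_apply, Module.End.mul_apply, ← Module.End.mul_apply (ρ g⁻¹), ← map_mul, inv_mul_cancel, map_one]
  rfl

theorem inv_range (ρ : G →* Module.End K V) {a : MonoidAlgebra K G} (hac : a ∈ fixAlg K (⊤ : Subgroup G)) :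
    Inv ρ (LinearMap.range (op ρ a)) := by
  rintro g _ ⟨w, rfl⟩
  exact ⟨ρ g w, op_comm ρ hac g w⟩

theorem op_range [Finite G] (ρ : G →* Module.End K V) {a : MonoidAlgebra K G} (haa : a * a = a)
    (hac : a ∈ fixAlg K (⊤ : Subgroup G)) : op (subrep ρ _ (inv_range ρ hac)) a = 1 := by
  apply LinearMap.ext
  rintro ⟨_, w, rfl⟩
  apply Subtype.ext
  rw [op_sub]
  change op ρ a (op ρ a w) = op ρ a w
  rw [← Module.End.mul_apply, ← map_mul, haa]

theorem hasN_range [Finite G] (ρ : G →* Module.End K V) (σ : T →* Module.End K E) {a : MonoidAlgebra K G}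
    (hac : a ∈ fixAlg K (⊤ : Subgroup G)) {ι : E →ₗ[K] V} (hι : THom ρ σ ι)
    (hp : ¬ Prj ρ σ ((op ρ a).comp ι)) : HasN (subrep ρ _ (inv_range ρ hac)) σ := by
  classical
  have := Fintype.ofFinite T
  refine ⟨((op ρ a).comp ι).codRestrict _ (fun e => ⟨ι e, rfl⟩), ?_, ?_⟩
  · intro t x
    apply Subtype.ext
    change op ρ a (ι (σ t x)) = ρ t (op ρ a (ι x))
    rw [hι, op_comm ρ hac]
  · intro hcon
    rw [prj_iff] at hcon
    obtain ⟨h, hh⟩ := hcon
    apply hp
    rw [prj_iff]
    refine ⟨(Submodule.subtype _).comp h, ?_⟩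
    apply LinearMap.ext
    intro e
    have h1 := congrArg (Submodule.subtype _) (LinearMap.congr_fun hh e)
    rw [trH_apply, map_sum] at h1
    rw [trH_apply]
    exact h1

/-- evaluation at `1` -/
def ev (σ : T →* Module.End K E) : indSpace σ →ₗ[K] E where
  toFun F := F.1 1
  map_add' x y := rfl
  map_smul' c x := rfl

theorem ev_ind (σ : T →* Module.End K E) (t : T) (F : indSpace σ) : ev σ (indRep σ t F) = σ t (ev σ F) := by
  change (indRep σ (t : G) F).1 1 = σ t (F.1 1)
  have h1 := F.2 t 1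
  rw [indRep_apply, one_mul]
  rw [mul_one] at h1
  exact h1

theorem ev_op [Fintype G] (σ : T →* Module.End K E) (a : MonoidAlgebra K G) (F : indSpace σ) :
    ev σ (op (indRep σ) a F) = ∑ g : G, a.coeff g • F.1 g := by
  rw [op_apply, map_sum]
  refine Finset.sum_congr rfl fun g _ => ?_
  rw [map_smul]
  change a.coeff g • (indRep σ g F).1 1 = _
  rw [indRep_apply, one_mul]

theorem ev_indIn [Finite G] (σ : T →* Module.End K E) (a : MonoidAlgebra K G) (e : E) :
    ev σ (op (indRep σ) a (indIn σ e)) = opT σ a e := by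
  classical
  have := Fintype.ofFinite G
  have := Fintype.ofFinite T
  rw [ev_op, opT_apply]
  rw [← Finset.sum_filter_add_sum_filter_not Finset.univ (fun g : G => g ∈ T)]
  have h1 : ∑ g ∈ Finset.univ.filter (fun g : G => g ∉ T), a.coeff g • (indIn σ e).1 g = 0 := by
    apply Finset.sum_eq_zero
    intro g hg
    rw [Finset.mem_filter] at hg
    rw [indIn_not_mem σ e hg.2, smul_zero]
  rw [h1, add_zero, Finset.sum_subtype (Finset.univ.filter (fun g : G => g ∈ T)) (p := fun g => g ∈ T)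
    (by intro g; simp)]
  refine Finset.sum_congr rfl fun t _ => ?_
  rw [indIn_mem σ e t.2]

theorem exists_simple_gen [Finite G] [FiniteDimensional K V] (ρ : G →* Module.End K V) (σ : T →* Module.End K E)
    {a : MonoidAlgebra K G} (haa : a * a = a)
    (hac : a ∈ fixAlg K (⊤ : Subgroup G)) {ι : E →ₗ[K] V} (hι : THom ρ σ ι)
    (hp : ¬ Prj ρ σ ((op ρ a).comp ι)) :
    ∃ (n : ℕ) (ρ' : G →* Module.End K (Fin n → K)), Irr ρ' ∧ op ρ' a = 1 ∧ HasN ρ' σ :=
  exists_simple_of_hasN (subrep ρ _ (inv_range ρ hac)) σ (op_range _ haa hac) (hasN_range ρ σ hac hι hp)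

theorem ind_not_prj [Finite G] [Nontrivial E] {Q : Subgroup G} (hQp : IsPGroup p Q)
    (hQT : Q ≤ T) (hQ1 : Q ≠ ⊥) (σ : T →* Module.End K E) (hσ : ∀ t : T, (t : G) ∈ Q → σ t = 1)
    {a : MonoidAlgebra K G} (hac : a ∈ fixAlg K (⊤ : Subgroup G)) (ha : opT σ (br Q a) = 1) :
    ¬ Prj (indRep σ) σ ((op (indRep σ) a).comp (indIn σ)) := by
  classical
  have := Fintype.ofFinite T
  intro hcon
  rw [prj_iff] at hcon
  obtain ⟨h, hh⟩ := hcon
  obtain ⟨e, he⟩ := exists_ne (0 : E)
  apply he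
  have h1 := congrArg (ev σ) (LinearMap.congr_fun hh e)
  rw [LinearMap.comp_apply, ev_indIn, ← opT_br hQp hQT σ hσ (fixAlg_anti le_top hac), ha, trH_apply, map_sum] at h1
  rw [Module.End.one_apply] at h1
  rw [h1]
  refine Eq.trans ?_ (trT_zero hQp hQT hQ1 σ hσ ((ev σ).comp h) e)
  exact Finset.sum_congr rfl fun t _ => ev_ind σ t _

theorem ind_fin [Finite G] [FiniteDimensional K E] (σ : T →* Module.End K E) : FiniteDimensional K (indSpace σ) := by
  have : FiniteDimensional K (G → E) := inferInstance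
  infer_instance

/-- **Existence.** -/
theorem exists_simple [Finite G] [FiniteDimensional K E] [Nontrivial E] {Q : Subgroup G} (hQp : IsPGroup p Q)
    (hQT : Q ≤ T) (hQ1 : Q ≠ ⊥) (σ : T →* Module.End K E) (hσ : ∀ t : T, (t : G) ∈ Q → σ t = 1)
    {a : MonoidAlgebra K G} (haa : a * a = a) (hac : a ∈ fixAlg K (⊤ : Subgroup G)) (ha : opT σ (br Q a) = 1) :
    ∃ (n : ℕ) (ρ' : G →* Module.End K (Fin n → K)), Irr ρ' ∧ op ρ' a = 1 ∧ HasN ρ' σ := by
  have h1 : FiniteDimensional K (indSpace σ) := ind_fin σ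
  have h2 := ind_not_prj hQp hQT hQ1 σ hσ hac ha
  exact exists_simple_gen (indRep σ) σ haa hac (indIn_thom σ) h2

end

end Cfsg.Agent.Lib.CycG3
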