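import Cfsg.Agent.Lib.CycG3

set_option autoImplicit false
set_option linter.all false

/-!
# Uniqueness of the non-projective homomorphism into a simple module (helper78)
-/

namespace Cfsg.Agent.Lib.CycG4

open Cfsg.Agent.Lib.BrauerMap Cfsg.Agent.Lib.PairMax Cfsg.Agent.Lib.CycG1 Cfsg.Agent.Lib.CycG2
open Cfsg.Agent.Lib.CycG3
open Module Cfsg.Agent.Lib.ModRep

section

variable {K : Type*} [Field K] {G : Type*} [Group G]

/-- local data: `K[C] f` is a matrix algebra over `K[x]` -/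
structure Loc (C T : Subgroup G) (f x i : MonoidAlgebra K G) {N : ℕ} (a b : Fin N → MonoidAlgebra K G) : Prop where
  CT : C ≤ T
  nrm : ∀ t ∈ T, ∀ c, c ∈ C ↔ t * c * t⁻¹ ∈ C
  idx : ((C.relIndex T : ℕ) : K) ≠ 0
  fZ : f ∈ ZAlg K C
  fT : ∀ t ∈ T, cj t f = f
  xZ : x ∈ ZAlg K C
  xT : ∀ t ∈ T, ∃ y ∈ suppAlg K C, cj t x = x * y
  iC : i ∈ suppAlg K C
  ii : i * i = i
  fi : f * i = i
  aC : ∀ r, a r ∈ suppAlg K C
  bC : ∀ r, b r ∈ suppAlg K C
  sum : ∑ r, a r * i * b r = f
  loc : ∀ z ∈ suppAlg K C, ∃ P : Polynomial K, i * z * i = Polynomial.aeval x P * i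

variable {C T : Subgroup G} {f x i : MonoidAlgebra K G} {N : ℕ} {a b : Fin N → MonoidAlgebra K G}
variable {V : Type*} [AddCommGroup V] [Module K V] {E : Type*} [AddCommGroup E] [Module K E]

/-- transfer of a `K[x]`-linear map to a `C`-linear map -/
noncomputable def FC (ρ : G →* Module.End K V) (i : MonoidAlgebra K G) (a b : Fin N → MonoidAlgebra K G)
    (F0 : Module.End K V) : Module.End K V :=
  ∑ r, op ρ (a r * i) * (F0 * op ρ (i * b r))

theorem Loc.x_comm [Finite G] (h : Loc C T f x i a b) {z : MonoidAlgebra K G} (hz : z ∈ suppAlg K C) :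
    z * x = x * z := comm_of_supp_fix hz h.xZ.2

theorem Loc.f_comm [Finite G] (h : Loc C T f x i a b) {z : MonoidAlgebra K G} (hz : z ∈ suppAlg K C) :
    z * f = f * z := comm_of_supp_fix hz h.fZ.2

theorem Loc.P_comm [Finite G] (h : Loc C T f x i a b) {z : MonoidAlgebra K G} (hz : z ∈ suppAlg K C) (P : Polynomial K) :
    z * Polynomial.aeval x P = Polynomial.aeval x P * z := by
  have h1 : Commute z x := h.x_comm hz
  induction P using Polynomial.induction_on' with
  | add p q hp hq => rw [map_add, mul_add, add_mul, hp, hq]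
  | monomial n c =>
    rw [Polynomial.aeval_monomial]
    have h2 : Commute z (algebraMap K (MonoidAlgebra K G) c) := (Algebra.commutes c z).symm
    exact (h2.mul_right (h1.pow_right n)).eq

theorem Loc.FC_comm [Finite G] (h : Loc C T f x i a b) (ρ : G →* Module.End K V) {F0 : Module.End K V}
    (hF : F0 * op ρ x = op ρ x * F0) {z : MonoidAlgebra K G} (hz : z ∈ suppAlg K C) :
    op ρ z * FC ρ i a b F0 = FC ρ i a b F0 * op ρ z := by
  classical
  have hP : ∀ s r, ∃ P : Polynomial K, i * (b s * z * a r) * i = Polynomial.aeval x P * i := fun s r =>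
    h.loc _ (mul_mem (mul_mem (h.bC s) hz) (h.aC r))
  choose P hP using hP
  have hFP : ∀ Q : Polynomial K, F0 * op ρ (Polynomial.aeval x Q) = op ρ (Polynomial.aeval x Q) * F0 := by
    intro Q
    have h1 : Commute F0 (op ρ x) := hF
    induction Q using Polynomial.induction_on' with
    | add p q hp hq => rw [map_add, map_add, mul_add, add_mul, hp, hq]
    | monomial n c =>
      rw [Polynomial.aeval_monomial, map_mul, map_pow, AlgHom.commutes]
      have h2 : Commute F0 (algebraMap K (Module.End K V) c) := (Algebra.commutes c F0).symm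
      exact (h2.mul_right (h1.pow_right n)).eq
  have h1 : ∀ r, z * (a r * i) = ∑ s, (a s * i) * Polynomial.aeval x (P s r) := by
    intro r
    have e1 : z * (a r * i) = f * (z * (a r * i)) := by
      rw [← mul_assoc f z, ← h.f_comm hz, mul_assoc z f, ← mul_assoc f (a r), ← h.f_comm (h.aC r), mul_assoc (a r) f,
        h.fi]
    rw [e1]
    conv_lhs => rw [← h.sum]
    rw [Finset.sum_mul]
    refine Finset.sum_congr rfl fun s _ => ?_
    have e2 : a s * i * b s * (z * (a r * i)) = a s * (i * (b s * z * a r) * i) := by noncomm_ring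
    rw [e2, hP, mul_assoc (a s) i, h.P_comm h.iC]
  have h2 : ∀ s, i * b s * z = ∑ r, Polynomial.aeval x (P s r) * (i * b r) := by
    intro s
    have e1 : i * b s * z = i * b s * z * f := by
      rw [h.f_comm (mul_mem (mul_mem h.iC (h.bC s)) hz), ← mul_assoc, ← mul_assoc, h.fi]
    rw [e1]
    conv_lhs => rw [← h.sum]
    rw [Finset.mul_sum]
    refine Finset.sum_congr rfl fun r _ => ?_
    have e2 : i * b s * z * (a r * i * b r) = (i * (b s * z * a r) * i) * b r := by noncomm_ring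
    rw [e2, hP, mul_assoc]
  unfold FC
  rw [Finset.mul_sum, Finset.sum_mul]
  have h3 : ∀ r, op ρ z * (op ρ (a r * i) * (F0 * op ρ (i * b r))) =
      ∑ s, op ρ (a s * i) * (op ρ (Polynomial.aeval x (P s r)) * (F0 * op ρ (i * b r))) := by
    intro r
    rw [← mul_assoc, ← map_mul, h1, map_sum, Finset.sum_mul]
    exact Finset.sum_congr rfl fun s _ => by rw [map_mul, mul_assoc]
  have h4 : ∀ s, op ρ (a s * i) * (F0 * op ρ (i * b s)) * op ρ z =
      ∑ r, op ρ (a s * i) * (op ρ (Polynomial.aeval x (P s r)) * (F0 * op ρ (i * b r))) := by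
    intro s
    rw [mul_assoc, mul_assoc, ← map_mul, h2, map_sum, Finset.mul_sum, Finset.mul_sum]
    refine Finset.sum_congr rfl fun r _ => ?_
    rw [map_mul (op ρ) (Polynomial.aeval x (P s r)), ← mul_assoc F0, hFP, mul_assoc]
  rw [Finset.sum_congr rfl (fun r _ => h3 r), Finset.sum_congr rfl (fun s _ => h4 s), Finset.sum_comm]

theorem Loc.subC (h : Loc C T f x i a b) : suppAlg K C ≤ suppAlg K T := suppAlg_mono h.CT

theorem Loc.level [Finite G] (h : Loc C T f x i a b) (ρ : G →* Module.End K V) (σ : T →* Module.End K E)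
    (hirr : Irr σ) (hxE : opT σ x = 0) (hfE : opT σ f = 1) {ι : E →ₗ[K] V} (hι : THom ρ σ ι) {m : ℕ}
    (hr : ¬ LinearMap.range ι ≤ LinearMap.range (op ρ x ^ m)) :
    ∃ F : Module.End K V, (∀ t ∈ T, ρ t * F = F * ρ t) ∧ (∀ e, F (ι e) = ι e) ∧
      ∀ (σ₂ : T →* Module.End K E), opT σ₂ x = 0 →
        (∀ φ : E →ₗ[K] E, (∀ (t : T) y, φ (σ₂ t y) = σ t (φ y)) → φ = 0) →
        ∀ ι₂ : E →ₗ[K] V, THom ρ σ₂ ι₂ → ∀ y, F (ι₂ y) = 0 := by
  classical
  have := Fintype.ofFinite G
  have := Fintype.ofFinite T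
  set D : Module.End K V := op ρ x with hD
  have hDι : ∀ y, D (ι y) = 0 := by
    intro y
    rw [hD, op_comp_hom hι (h.subC h.xZ.1), hxE, LinearMap.zero_apply, map_zero]
  -- the level
  obtain ⟨j, hj1, hj2⟩ : ∃ j, LinearMap.range ι ≤ LinearMap.range (D ^ j) ∧
      ¬ LinearMap.range ι ≤ LinearMap.range (D ^ (j + 1)) := by
    by_contra hcon
    push Not at hcon
    have : ∀ j, LinearMap.range ι ≤ LinearMap.range (D ^ j) := by
      intro j
      induction j with
      | zero =>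
        rw [pow_zero]
        intro v _
        exact ⟨v, rfl⟩
      | succ j ih => exact hcon j ih
    exact hr (this _)
  -- stability
  have hstab : ∀ t ∈ T, ∀ v, v ∈ LinearMap.range (D ^ (j + 1)) → ρ t v ∈ LinearMap.range (D ^ (j + 1)) := by
    rintro t ht _ ⟨w, rfl⟩
    obtain ⟨y, hy, hxy⟩ := h.xT t ht
    have h1 : ρ t * D = op ρ (cj t x) * ρ t := by
      rw [op_cj, mul_assoc, ← map_mul, inv_mul_cancel, map_one, mul_one]
    have h2 : ρ t * D ^ (j + 1) = (op ρ (cj t x)) ^ (j + 1) * ρ t := by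
      have h3 : SemiconjBy (ρ t) D (op ρ (cj t x)) := h1
      exact h3.pow_right (j + 1)
    have h3 : Commute (op ρ x) (op ρ y) := by
      change op ρ x * op ρ y = op ρ y * op ρ x
      rw [← map_mul, ← map_mul, h.x_comm hy]
    have h4 : (op ρ (cj t x)) ^ (j + 1) = D ^ (j + 1) * (op ρ y) ^ (j + 1) := by
      rw [hxy, map_mul, h3.mul_pow]
    refine ⟨((op ρ y) ^ (j + 1)) (ρ t w), ?_⟩
    rw [← Module.End.mul_apply, ← h4, ← Module.End.mul_apply, ← h2, Module.End.mul_apply]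
  have hinj : ∀ y, ι y ∈ LinearMap.range (D ^ (j + 1)) → y = 0 := by
    intro y hy
    let W : Submodule K E := (LinearMap.range (D ^ (j + 1))).comap ι
    have hW : Inv σ W := by
      intro n w hw
      change ι (σ n w) ∈ LinearMap.range (D ^ (j + 1))
      rw [hι]
      exact hstab n n.2 _ hw
    rcases hirr.irr W hW with h | h
    · have h1 : y ∈ W := hy
      rw [h, Submodule.mem_bot] at h1
      exact h1
    · exfalso
      apply hj2
      rintro _ ⟨z, rfl⟩
      have h1 : z ∈ W := by rw [h]; exact Submodule.mem_top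
      exact h1
  -- lift
  obtain ⟨y, hy⟩ : ∃ y : E →ₗ[K] V, ∀ z, (D ^ j) (y z) = ι z := by
    have h1 : ∀ z, ι z ∈ LinearMap.range (D ^ j) := fun z => hj1 ⟨z, rfl⟩
    obtain ⟨y, hy⟩ := Module.projective_lifting_property (D ^ j).rangeRestrict
      (ι.codRestrict _ h1) (LinearMap.surjective_rangeRestrict _)
    refine ⟨y, fun z => ?_⟩
    have := congrArg Subtype.val (LinearMap.congr_fun hy z)
    exact this
  -- functional
  obtain ⟨g, hg1, hg2⟩ : ∃ g : V →ₗ[K] E, (∀ v, g ((D ^ (j + 1)) v) = 0) ∧ ∀ z, g (ι z) = z := by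
    let R := LinearMap.range (D ^ (j + 1))
    have h1 : LinearMap.ker (R.mkQ ∘ₗ ι) = ⊥ := by
      rw [LinearMap.ker_eq_bot']
      intro z hz
      apply hinj
      rw [LinearMap.comp_apply, Submodule.mkQ_apply, Submodule.Quotient.mk_eq_zero] at hz
      exact hz
    obtain ⟨g, hg⟩ := LinearMap.exists_leftInverse_of_injective _ h1
    refine ⟨g ∘ₗ R.mkQ, ?_, ?_⟩
    · intro v
      rw [LinearMap.comp_apply, Submodule.mkQ_apply]
      have : Submodule.Quotient.mk ((D ^ (j + 1)) v) = (0 : V ⧸ R) := by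
        rw [Submodule.Quotient.mk_eq_zero]; exact ⟨v, rfl⟩
      rw [this, map_zero]
    · intro z
      have := LinearMap.congr_fun hg z
      exact this
  -- the operator commuting with `x`
  let F0 : Module.End K V := ∑ l ∈ Finset.range (j + 1), (D ^ l) * ((y ∘ₗ g : Module.End K V) * D ^ (j - l))
  have hD0 : D ^ (j + 1) * (y ∘ₗ g : Module.End K V) = 0 := by
    apply LinearMap.ext
    intro v
    rw [pow_succ', Module.End.mul_apply, Module.End.mul_apply, LinearMap.comp_apply, hy, hDι]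
    rfl
  have hf0 : (y ∘ₗ g : Module.End K V) * D ^ (j + 1) = 0 := by
    apply LinearMap.ext
    intro v
    rw [Module.End.mul_apply, LinearMap.comp_apply, hg1, map_zero]
    rfl
  have hcomm : F0 * D = D * F0 := by
    have h1 : F0 * D = ∑ l ∈ Finset.range (j + 1), (D ^ l) * ((y ∘ₗ g : Module.End K V) * D ^ (j + 1 - l)) := by
      rw [Finset.sum_mul]
      refine Finset.sum_congr rfl fun l hl => ?_
      rw [Finset.mem_range] at hl
      rw [mul_assoc, mul_assoc, ← pow_succ]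
      congr 3; omega
    have h2 : D * F0 = ∑ l ∈ Finset.range (j + 1), (D ^ (l + 1)) * ((y ∘ₗ g : Module.End K V) * D ^ (j + 1 - (l + 1))) := by
      rw [Finset.mul_sum]
      refine Finset.sum_congr rfl fun l hl => ?_
      rw [← mul_assoc, ← pow_succ', Nat.add_sub_add_right]
    have h3 := Finset.sum_range_succ (fun l => (D ^ l) * ((y ∘ₗ g : Module.End K V) * D ^ (j + 1 - l))) (j + 1)
    have h4 := Finset.sum_range_succ' (fun l => (D ^ l) * ((y ∘ₗ g : Module.End K V) * D ^ (j + 1 - l))) (j + 1)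
    rw [← mul_assoc, hD0, zero_mul, add_zero] at h3
    rw [Nat.sub_zero, hf0, mul_zero, add_zero] at h4
    rw [h1, h2, ← h3, h4]
  have hF0 : ∀ v, D v = 0 → F0 v = ι (g v) := by
    intro v hv
    change (∑ l ∈ Finset.range (j + 1), (D ^ l) * ((y ∘ₗ g : Module.End K V) * D ^ (j - l))) v = _
    rw [LinearMap.sum_apply, Finset.sum_eq_single j]
    · rw [Module.End.mul_apply, Module.End.mul_apply, Nat.sub_self, pow_zero, Module.End.one_apply,
        LinearMap.comp_apply, hy]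
    · intro l hl hlj
      rw [Finset.mem_range] at hl
      obtain ⟨m, hm⟩ : ∃ m, j - l = m + 1 := ⟨j - l - 1, by omega⟩
      rw [Module.End.mul_apply, Module.End.mul_apply, hm, pow_succ, Module.End.mul_apply, hv, map_zero,
        map_zero, map_zero]
    · intro h
      exact absurd (Finset.mem_range.2 (Nat.lt_succ_self j)) h
  -- the `C`-linear operator
  set Fc := FC ρ i a b F0 with hFc
  have hFcC : ∀ z ∈ suppAlg K C, op ρ z * Fc = Fc * op ρ z := fun z hz => h.FC_comm ρ hcomm hz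
  -- its value on homomorphic images
  have hFcι : ∀ (σ₂ : T →* Module.End K E), opT σ₂ x = 0 → ∀ ι₂ : E →ₗ[K] V, THom ρ σ₂ ι₂ → ∀ z,
      Fc (ι₂ z) = ι (∑ r, opT σ (a r * i) (g (ι₂ (opT σ₂ (i * b r) z)))) := by
    intro σ₂ hσ₂ ι₂ hι₂ z
    have hDι₂ : ∀ z, D (ι₂ z) = 0 := by
      intro z
      rw [hD, op_comp_hom hι₂ (h.subC h.xZ.1), hσ₂, LinearMap.zero_apply, map_zero]
    rw [hFc, FC, LinearMap.sum_apply, map_sum]
    refine Finset.sum_congr rfl fun r _ => ?_
    rw [Module.End.mul_apply, Module.End.mul_apply,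
      op_comp_hom hι₂ (h.subC (mul_mem h.iC (h.bC r))), hF0 _ (hDι₂ _),
      op_comp_hom hι (h.subC (mul_mem (h.aC r) h.iC))]
  have hFcι1 : ∀ z, Fc (ι z) = ι z := by
    intro z
    rw [hFcι σ hxE ι hι]
    congr 1
    have h1 : ∀ r, opT σ (a r * i) (g (ι (opT σ (i * b r) z))) = opT σ (a r * i * b r) z := by
      intro r
      have e1 : a r * i * b r = (a r * i) * (i * b r) := by
        rw [← mul_assoc, mul_assoc (a r) i i, h.ii]
      rw [hg2, e1, opT_mul σ _ (h.subC (mul_mem h.iC (h.bC r)))]; rfl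
    rw [Finset.sum_congr rfl (fun r _ => h1 r)]
    have h2 : ∑ r, opT σ (a r * i * b r) z = opT σ (∑ r, a r * i * b r) z := by
      rw [opT_apply]
      simp only [opT_apply, sum_coeff, Finset.sum_smul]
      rw [Finset.sum_comm]
    rw [h2, h.sum, hfE]; rfl
  -- averaging
  have hFcfix : ∀ d ∈ C, cjH ρ ρ d Fc = Fc := by
    intro d hd
    rw [cjH_fix]
    have h1 := hFcC (MonoidAlgebra.single d 1) (by
      intro g hg
      have : g ≠ d := by rintro rfl; exact hg hd
      simp [Ne.symm this])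
    rw [op_single, one_smul] at h1
    exact h1
  have hft := Fintype.ofFinite (T ⧸ C.subgroupOf T)
  have hcard : (Fintype.card (T ⧸ C.subgroupOf T) : K) ≠ 0 := by
    have h1 := h.idx
    rwa [Subgroup.relIndex, Subgroup.index, Nat.card_eq_fintype_card] at h1
  set cc : K := (Fintype.card (T ⧸ C.subgroupOf T) : K)⁻¹ with hcc
  let F : Module.End K V := cc • rt (cjH ρ ρ) C T Fc
  have hFapp : ∀ v, F v = cc • ∑ q : T ⧸ C.subgroupOf T, ρ ((q.out : T) : G) (Fc (ρ (((q.out : T) : G))⁻¹ v)) := by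
    intro v
    change cc • (rt (cjH ρ ρ) C T Fc) v = _
    rw [rt_eq, LinearMap.sum_apply]
    rfl
  have hFT : ∀ t ∈ T, ρ t * F = F * ρ t := by
    intro t ht
    have h1 : cjH ρ ρ t (rt (cjH ρ ρ) C T Fc) = rt (cjH ρ ρ) C T Fc := act_rt _ hFcfix ht
    rw [cjH_fix] at h1
    change ρ t * (cc • rt (cjH ρ ρ) C T Fc) = (cc • rt (cjH ρ ρ) C T Fc) * ρ t
    rw [mul_smul_comm, smul_mul_assoc]
    congr 1
  have hιinj : ∀ z, ι z = 0 → z = 0 := fun z hz => hinj z (by rw [hz]; exact Submodule.zero_mem _)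
  refine ⟨F, hFT, ?_, ?_⟩
  · intro z
    rw [hFapp]
    have h1 : ∀ q : T ⧸ C.subgroupOf T, ρ ((q.out : T) : G) (Fc (ρ (((q.out : T) : G))⁻¹ (ι z))) = ι z := by
      intro q
      have h2 := hι (q.out)⁻¹ z
      change _ = ρ ((q.out : T) : G)⁻¹ (ι z) at h2
      rw [← h2, hFcι1, h2, ← Module.End.mul_apply, ← map_mul, mul_inv_cancel, map_one]; rfl
    rw [Finset.sum_congr rfl (fun q _ => h1 q), Finset.sum_const, Finset.card_univ, ← Nat.cast_smul_eq_nsmul K,
      smul_smul, hcc, inv_mul_cancel₀ hcard, one_smul]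
  · intro σ₂ hσ₂ hno ι₂ hι₂ z
    -- the induced map
    let ψc : E →ₗ[K] E := ∑ r, (opT σ (a r * i)).comp (g.comp (ι₂.comp (opT σ₂ (i * b r))))
    have hψc : ∀ z, ψc z = ∑ r, opT σ (a r * i) (g (ι₂ (opT σ₂ (i * b r) z))) := by
      intro z
      change (∑ r, (opT σ (a r * i)).comp (g.comp (ι₂.comp (opT σ₂ (i * b r))))) z = _
      rw [LinearMap.sum_apply]; rfl
    have h1 : ∀ z, Fc (ι₂ z) = ι (ψc z) := fun z => by rw [hFcι σ₂ hσ₂ ι₂ hι₂, hψc]
    let ψ : E →ₗ[K] E := cc • ∑ q : T ⧸ C.subgroupOf T, (σ q.out).comp (ψc.comp (σ₂ (q.out)⁻¹))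
    have hψ : ∀ z, ψ z = cc • ∑ q : T ⧸ C.subgroupOf T, σ q.out (ψc (σ₂ (q.out)⁻¹ z)) := by
      intro z
      change cc • ((∑ q : T ⧸ C.subgroupOf T, (σ q.out).comp (ψc.comp (σ₂ (q.out)⁻¹))) z) = _
      rw [LinearMap.sum_apply]; rfl
    have h2 : ∀ z, F (ι₂ z) = ι (ψ z) := by
      intro z
      rw [hFapp, hψ, map_smul, map_sum]
      congr 1
      refine Finset.sum_congr rfl fun q _ => ?_
      have h3 := hι₂ (q.out)⁻¹ z
      change _ = ρ ((q.out : T) : G)⁻¹ (ι₂ z) at h3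
      rw [← h3, h1, hι]
    have h3 : ψ = 0 := by
      apply hno
      intro t z
      have h4 : ι (ψ (σ₂ t z) - σ t (ψ z)) = 0 := by
        rw [map_sub, ← h2, hι, ← h2, hι₂, ← Module.End.mul_apply, ← hFT t t.2, Module.End.mul_apply, sub_self]
      have h5 := hιinj _ h4
      rwa [sub_eq_zero] at h5
    rw [h2, h3, LinearMap.zero_apply, map_zero]

/-- the element attached to the trace of a representation -/
noncomputable def chE (C : Subgroup G) (σ : T →* Module.End K E) (CT : C ≤ T) : MonoidAlgebra K G :=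
  ∑ᶠ c : C, MonoidAlgebra.single (c : G) (LinearMap.trace K E (σ (⟨c, CT c.2⟩ : T)⁻¹))

theorem chE_coeff [Finite G] (CT : C ≤ T) (σ : T →* Module.End K E) (c : C) :
    (chE C σ CT).coeff (c : G) = LinearMap.trace K E (σ (⟨c, CT c.2⟩ : T)⁻¹) := by
  classical
  have := Fintype.ofFinite C
  rw [chE, finsum_eq_sum_of_fintype, sum_coeff, Finset.sum_eq_single c]
  · simp
  · intro d _ hd
    have : (d : G) ≠ c := fun h => hd (Subtype.ext h)
    simp [this]
  · intro h; exact absurd (Finset.mem_univ _) h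

theorem chE_supp [Finite G] (CT : C ≤ T) (σ : T →* Module.End K E) : chE C σ CT ∈ suppAlg K C := by
  classical
  have := Fintype.ofFinite C
  intro g hg
  rw [chE, finsum_eq_sum_of_fintype, sum_coeff]
  apply Finset.sum_eq_zero
  intro d _
  have : (d : G) ≠ g := by rintro rfl; exact hg d.2
  simp [this]

/-- `j * chE` for `j` acting on `E` as an endomorphism `A` -/
theorem mul_chE_coeff [Finite G] (CT : C ≤ T) (σ : T →* Module.End K E) {z : MonoidAlgebra K G}
    (hz : z ∈ suppAlg K C) (c : C) :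
    (z * chE C σ CT).coeff (c : G) = LinearMap.trace K E (σ (⟨c, CT c.2⟩ : T)⁻¹ * opT σ z) := by
  classical
  have := Fintype.ofFinite G
  have := Fintype.ofFinite C
  have := Fintype.ofFinite T
  rw [mul_coeff, opT_eq, Finset.mul_sum, map_sum]
  have h1 : ∑ y : G, z.coeff y * (chE C σ CT).coeff (y⁻¹ * c) =
      ∑ y : C, z.coeff (y : G) * (chE C σ CT).coeff ((y : G)⁻¹ * c) := by
    refine Eq.trans ?_ (Finset.sum_subtype (Finset.univ.filter (fun s : G => s ∈ C)) (p := fun s => s ∈ C) (by intro s; simp)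
      (fun y : G => z.coeff y * (chE C σ CT).coeff (y⁻¹ * c)))
    rw [Finset.sum_filter]
    refine Finset.sum_congr rfl fun s _ => ?_
    split_ifs with hs
    · rfl
    · rw [hz s hs, zero_mul]
  have h2 : ∑ t : T, LinearMap.trace K E (σ (⟨c, CT c.2⟩ : T)⁻¹ * (z.coeff (t : G) • σ t)) =
      ∑ y : C, LinearMap.trace K E (σ (⟨c, CT c.2⟩ : T)⁻¹ * (z.coeff (y : G) • σ ⟨y, CT y.2⟩)) := by
    let F : G → K := fun g => if hg : g ∈ T then LinearMap.trace K E (σ (⟨c, CT c.2⟩ : T)⁻¹ * (z.coeff g • σ ⟨g, hg⟩)) else 0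
    have h3 : ∀ t : T, LinearMap.trace K E (σ (⟨c, CT c.2⟩ : T)⁻¹ * (z.coeff (t : G) • σ t)) = F t := fun t => by
      change _ = dite _ _ _
      rw [dif_pos t.2]
    have h4 : ∀ y : C, LinearMap.trace K E (σ (⟨c, CT c.2⟩ : T)⁻¹ * (z.coeff (y : G) • σ ⟨y, CT y.2⟩)) = F y := fun y => by
      change _ = dite _ _ _
      rw [dif_pos (CT y.2)]
    rw [Finset.sum_congr rfl (fun t _ => h3 t), Finset.sum_congr rfl (fun y _ => h4 y)]
    rw [← Finset.sum_subtype (Finset.univ.filter (fun s : G => s ∈ T)) (p := fun s => s ∈ T) (by intro s; simp) F,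
      ← Finset.sum_subtype (Finset.univ.filter (fun s : G => s ∈ C)) (p := fun s => s ∈ C) (by intro s; simp) F]
    symm
    apply Finset.sum_subset
    · intro s hs
      rw [Finset.mem_filter] at hs ⊢
      exact ⟨hs.1, CT hs.2⟩
    · intro s hs hs'
      rw [Finset.mem_filter] at hs hs'
      have h5 : s ∉ C := fun h => hs' ⟨Finset.mem_univ _, h⟩
      change dite _ _ _ = _
      rw [dif_pos hs.2, hz s h5, zero_smul, mul_zero, map_zero]
  rw [h1, h2]
  refine Finset.sum_congr rfl fun y _ => ?_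
  have h3 : (y : G)⁻¹ * c = ((y⁻¹ * c : C) : G) := rfl
  rw [h3, chE_coeff, mul_smul_comm, map_smul, smul_eq_mul]
  congr 2
  rw [← map_mul]
  congr 1
  apply Subtype.ext
  change ((y : G)⁻¹ * c)⁻¹ = (c : G)⁻¹ * y
  group

/-- homomorphisms with image in `s V` are projective -/
theorem Loc.prj_of_range [Finite G] [IsAlgClosed K] [FiniteDimensional K E] (h : Loc C T f x i a b)
    (ρ : G →* Module.End K V) (σ : T →* Module.End K E)
    (hirr : Irr (σ.comp (Subgroup.inclusion h.CT))) {ι : E →ₗ[K] V} (hι : THom ρ σ ι)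
    (hr : LinearMap.range ι ≤ LinearMap.range (op ρ (chE C σ h.CT))) : Prj ρ σ ι := by
  classical
  have := Fintype.ofFinite G
  have := Fintype.ofFinite T
  have := Fintype.ofFinite C
  have hnt := hirr.nt
  -- lift
  obtain ⟨v, hv⟩ : ∃ v : E →ₗ[K] V, ∀ z, op ρ (chE C σ h.CT) (v z) = ι z := by
    have h1 : ∀ z, ι z ∈ LinearMap.range (op ρ (chE C σ h.CT)) := fun z => hr ⟨z, rfl⟩
    obtain ⟨y, hy⟩ := Module.projective_lifting_property (op ρ (chE C σ h.CT)).rangeRestrict
      (ι.codRestrict _ h1) (LinearMap.surjective_rangeRestrict _)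
    refine ⟨y, fun z => ?_⟩
    have := congrArg Subtype.val (LinearMap.congr_fun hy z)
    exact this
  obtain ⟨e1, he1⟩ := exists_ne (0 : E)
  obtain ⟨l, hl⟩ : ∃ l : Module.Dual K E, l e1 = 1 := by
    obtain ⟨l, hl⟩ : ∃ l : Module.Dual K E, l e1 ≠ 0 := by
      by_contra hcon
      push Not at hcon
      exact he1 ((Module.forall_dual_apply_eq_zero_iff K e1).1 hcon)
    exact ⟨(l e1)⁻¹ • l, by rw [LinearMap.smul_apply, smul_eq_mul, inv_mul_cancel₀ hl]⟩
  set A : Module.End K E := l.smulRight e1 with hA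
  have hAe : ∀ z, A z = l z • e1 := fun z => rfl
  -- an element acting as `A`
  obtain ⟨j, hj, hjA⟩ : ∃ j ∈ suppAlg K C, opT σ j = A := by
    have h1 := burnside_span hirr A
    rw [Submodule.mem_span_range_iff_exists_fun] at h1
    obtain ⟨cf, hcf⟩ := h1
    let j : MonoidAlgebra K G := ∑ c : C, MonoidAlgebra.single (c : G) (cf c)
    have hjc : ∀ c : C, j.coeff (c : G) = cf c := by
      intro c
      change (∑ c : C, MonoidAlgebra.single (c : G) (cf c)).coeff (c : G) = _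
      rw [sum_coeff, Finset.sum_eq_single c]
      · simp
      · intro d _ hd
        have : (d : G) ≠ c := fun h => hd (Subtype.ext h)
        simp [this]
      · intro h; exact absurd (Finset.mem_univ _) h
    have hjs : j ∈ suppAlg K C := by
      intro g hg
      change (∑ c : C, MonoidAlgebra.single (c : G) (cf c)).coeff g = _
      rw [sum_coeff]
      apply Finset.sum_eq_zero
      intro d _
      have : (d : G) ≠ g := by rintro rfl; exact hg d.2
      simp [this]
    refine ⟨j, hjs, ?_⟩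
    rw [← hcf, opT_eq]
    let F : G → Module.End K E := fun g => if hg : g ∈ T then j.coeff g • σ ⟨g, hg⟩ else 0
    have h3 : ∀ t : T, j.coeff (t : G) • σ t = F t := fun t => by
      change _ = dite _ _ _
      rw [dif_pos t.2]
    have h4 : ∀ y : C, cf y • (σ.comp (Subgroup.inclusion h.CT)) y = F y := fun y => by
      change _ = dite _ _ _
      rw [dif_pos (h.CT y.2), hjc]; rfl
    rw [Finset.sum_congr rfl (fun t _ => h3 t), Finset.sum_congr rfl (fun y _ => h4 y)]
    rw [← Finset.sum_subtype (Finset.univ.filter (fun s : G => s ∈ T)) (p := fun s => s ∈ T) (by intro s; simp) F,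
      ← Finset.sum_subtype (Finset.univ.filter (fun s : G => s ∈ C)) (p := fun s => s ∈ C) (by intro s; simp) F]
    symm
    apply Finset.sum_subset
    · intro s hs
      rw [Finset.mem_filter] at hs ⊢
      exact ⟨hs.1, h.CT hs.2⟩
    · intro s hs hs'
      rw [Finset.mem_filter] at hs hs'
      have h5 : s ∉ C := fun h => hs' ⟨Finset.mem_univ _, h⟩
      change dite _ _ _ = _
      rw [dif_pos hs.2, hjs s h5, zero_smul]
  -- the trace map
  let κ : E →ₗ[K] V := ∑ c : C, (l ∘ₗ σ (⟨c, h.CT c.2⟩ : T)⁻¹).smulRight (ρ (c : G) (v e1))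
  have hκ : ∀ z, κ z = ∑ c : C, l (σ (⟨c, h.CT c.2⟩ : T)⁻¹ z) • ρ (c : G) (v e1) := by
    intro z
    change (∑ c : C, (l ∘ₗ σ (⟨c, h.CT c.2⟩ : T)⁻¹).smulRight (ρ (c : G) (v e1))) z = _
    rw [LinearMap.sum_apply]; rfl
  have hκC : ∀ (d : C) z, κ (σ ⟨d, h.CT d.2⟩ z) = ρ d (κ z) := by
    intro d z
    rw [hκ, hκ, map_sum, ← Equiv.sum_comp (Equiv.mulLeft d)]
    refine Finset.sum_congr rfl fun c _ => ?_
    have e2 : (Equiv.mulLeft d) c = d * c := rfl
    rw [e2, map_smul]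
    have e3 : σ (⟨((d * c : C) : G), h.CT (d * c).2⟩ : T)⁻¹ (σ ⟨d, h.CT d.2⟩ z) = σ (⟨c, h.CT c.2⟩ : T)⁻¹ z := by
      rw [← Module.End.mul_apply, ← map_mul]
      congr 2
      apply Subtype.ext
      change ((d : G) * c)⁻¹ * d = (c : G)⁻¹
      group
    have e4 : ρ ((d * c : C) : G) (v e1) = ρ d (ρ c (v e1)) := by
      rw [← Module.End.mul_apply, ← map_mul]; rfl
    rw [e3, e4]
  have hκe : κ e1 = ι e1 := by
    have e2 : ι e1 = op ρ j (ι e1) := by
      rw [op_comp_hom hι (h.subC hj), hjA, hAe, hl, one_smul]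
    rw [e2, ← hv, ← Module.End.mul_apply, ← map_mul, op_apply, hκ]
    have e3 : ∑ g : G, (j * chE C σ h.CT).coeff g • ρ g (v e1) =
        ∑ c : C, (j * chE C σ h.CT).coeff (c : G) • ρ (c : G) (v e1) := by
      refine Eq.trans ?_ (Finset.sum_subtype (Finset.univ.filter (fun s : G => s ∈ C)) (p := fun s => s ∈ C) (by intro s; simp)
        (fun g : G => (j * chE C σ h.CT).coeff g • ρ g (v e1)))
      rw [Finset.sum_filter]
      refine Finset.sum_congr rfl fun s _ => ?_
      split_ifs with hs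
      · rfl
      · rw [(mul_mem hj (chE_supp h.CT σ) : j * chE C σ h.CT ∈ suppAlg K C) s hs, zero_smul]
    rw [e3]
    refine Finset.sum_congr rfl fun c _ => ?_
    rw [mul_chE_coeff h.CT σ hj, hjA]
    congr 1
    have e4 : σ (⟨c, h.CT c.2⟩ : T)⁻¹ * A = l.smulRight (σ (⟨c, h.CT c.2⟩ : T)⁻¹ e1) := by
      apply LinearMap.ext
      intro z
      rw [Module.End.mul_apply, hAe, map_smul]; rfl
    rw [e4]
    exact (LinearMap.trace_smulRight l _).symm
  have hκι : κ = ι := by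
    have h1 : Inv (σ.comp (Subgroup.inclusion h.CT)) (LinearMap.ker (κ - ι)) := by
      intro d w hw
      rw [LinearMap.mem_ker, LinearMap.sub_apply] at hw ⊢
      have e2 : (σ.comp (Subgroup.inclusion h.CT)) d = σ ⟨d, h.CT d.2⟩ := rfl
      rw [e2, hκC, hι, ← map_sub, hw, map_zero]
    rcases hirr.irr _ h1 with h2 | h2
    · exfalso
      apply he1
      have : e1 ∈ LinearMap.ker (κ - ι) := by rw [LinearMap.mem_ker, LinearMap.sub_apply, hκe, sub_self]
      rw [h2, Submodule.mem_bot] at this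
      exact this
    · rw [LinearMap.ker_eq_top, sub_eq_zero] at h2
      exact h2
  -- average
  have hft := Fintype.ofFinite (T ⧸ C.subgroupOf T)
  have hcard : (Fintype.card (T ⧸ C.subgroupOf T) : K) ≠ 0 := by
    have h1 := h.idx
    rwa [Subgroup.relIndex, Subgroup.index, Nat.card_eq_fintype_card] at h1
  set cc : K := (Fintype.card (T ⧸ C.subgroupOf T) : K)⁻¹ with hcc
  rw [prj_iff]
  refine ⟨cc • l.smulRight (v e1), ?_⟩
  apply LinearMap.ext
  intro z
  rw [trH_apply]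
  -- sum over cosets
  have h5 : ∀ t : T, ρ (t : G) ((cc • l.smulRight (v e1)) (σ t⁻¹ z)) = cc • (l (σ t⁻¹ z) • ρ (t : G) (v e1)) := by
    intro t
    change ρ (t : G) (cc • (l (σ t⁻¹ z) • v e1)) = _
    rw [map_smul, map_smul]
  rw [Finset.sum_congr rfl (fun t _ => h5 t), ← Finset.smul_sum]
  let φ : (T ⧸ C.subgroupOf T) × C → T := fun w => w.1.out * ⟨(w.2 : G), h.CT w.2.2⟩
  have hφ : Function.Bijective φ := by
    constructor
    · rintro ⟨c, x⟩ ⟨c', x'⟩ h0
      have h1 : c.out * ⟨(x : G), h.CT x.2⟩ = c'.out * ⟨(x' : G), h.CT x'.2⟩ := h0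
      have h2 : c = c' := by
        rw [← QuotientGroup.out_eq' c, ← QuotientGroup.out_eq' c']
        apply QuotientGroup.eq.2
        rw [Subgroup.mem_subgroupOf]
        have h3 : c.out⁻¹ * c'.out = ⟨(x : G), h.CT x.2⟩ * (⟨(x' : G), h.CT x'.2⟩ : T)⁻¹ := by
          rw [inv_mul_eq_iff_eq_mul, ← mul_assoc, h1]; group
        rw [h3]
        exact C.mul_mem x.2 (C.inv_mem x'.2)
      subst h2
      have h3 := mul_left_cancel h1
      have h4 : (x : G) = x' := congrArg (fun z : T => (z : G)) h3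
      rw [Subtype.ext h4]
    · intro t
      have h1 : ((((QuotientGroup.mk t : T ⧸ C.subgroupOf T).out)⁻¹ * t : T) : G) ∈ C := by
        have := QuotientGroup.eq.mp (QuotientGroup.out_eq' (QuotientGroup.mk t : T ⧸ C.subgroupOf T))
        rw [Subgroup.mem_subgroupOf] at this
        exact this
      refine ⟨(QuotientGroup.mk t, ⟨_, h1⟩), ?_⟩
      apply Subtype.ext
      change (((QuotientGroup.mk t : T ⧸ C.subgroupOf T).out : T) : G) * ((((QuotientGroup.mk t : T ⧸ C.subgroupOf T).out)⁻¹ * t : T) : G) = t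
      simp
  rw [← (Equiv.ofBijective φ hφ).sum_comp, Fintype.sum_prod_type]
  have h6 : ∀ q : T ⧸ C.subgroupOf T, ∑ c : C, l (σ (φ (q, c))⁻¹ z) • ρ (φ (q, c) : G) (v e1) = ι z := by
    intro q
    have h7 : ∀ c : C, l (σ (φ (q, c))⁻¹ z) • ρ (φ (q, c) : G) (v e1) =
        ρ ((q.out : T) : G) (l (σ (⟨c, h.CT c.2⟩ : T)⁻¹ (σ (q.out)⁻¹ z)) • ρ (c : G) (v e1)) := by
      intro c
      have e2 : φ (q, c) = q.out * ⟨(c : G), h.CT c.2⟩ := rfl
      have e3 : ρ ((q.out * ⟨(c : G), h.CT c.2⟩ : T) : G) = ρ ((q.out : T) : G) * ρ (c : G) := by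
        rw [← map_mul]; rfl
      rw [e2, mul_inv_rev, map_mul, e3, map_smul]
      rfl
    rw [Finset.sum_congr rfl (fun c _ => h7 c), ← map_sum, ← hκ, hκι, hι]
    change ρ ((q.out : T) : G) (ρ (((q.out)⁻¹ : T) : G) (ι z)) = ι z
    rw [← Module.End.mul_apply, ← map_mul]
    have e2 : ((q.out : T) : G) * (((q.out)⁻¹ : T) : G) = 1 := by
      change ((q.out : T) : G) * ((q.out : T) : G)⁻¹ = 1
      rw [mul_inv_cancel]
    rw [e2, map_one]; rfl
  have h8 : ∑ q : T ⧸ C.subgroupOf T, ∑ c : C, l (σ ((Equiv.ofBijective φ hφ) (q, c))⁻¹ z) •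
      ρ (((Equiv.ofBijective φ hφ) (q, c) : T) : G) (v e1) = ∑ q : T ⧸ C.subgroupOf T, ι z :=
    Finset.sum_congr rfl fun q _ => h6 q
  rw [h8, Finset.sum_const, Finset.card_univ, ← Nat.cast_smul_eq_nsmul K, smul_smul, hcc, inv_mul_cancel₀ hcard, one_smul]

/-- **Uniqueness.** -/
theorem Loc.unique [Finite G] [IsAlgClosed K] [FiniteDimensional K E] [FiniteDimensional K V]
    (h : Loc C T f x i a b) {D : Subgroup G} (hDT : D ≤ T) {c : MonoidAlgebra K G}
    (hc : c ∈ fixAlg K D) (htr : tr D T c = f) (hff : f * f = f)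
    (hsep : ∀ g ∉ T, (∀ x ∈ D, g⁻¹ * x * g ∈ D → x = 1) ∨ cj g f * f = 0)
    (ρ : G →* Module.End K V) (hρ : Irr ρ) (σ₁ σ₂ : T →* Module.End K E)
    (hirr : Irr (σ₁.comp (Subgroup.inclusion h.CT))) (hx1 : opT σ₁ x = 0) (hx2 : opT σ₂ x = 0)
    (hf1 : opT σ₁ f = 1) (hf2 : opT σ₂ f = 1) {m : ℕ} {l : K} (hm : x ^ m = l • chE C σ₁ h.CT)
    (hN1 : HasN ρ σ₁) (hN2 : HasN ρ σ₂) :
    ∃ φ : E →ₗ[K] E, (∀ (t : T) y, φ (σ₂ t y) = σ₁ t (φ y)) ∧ φ ≠ 0 := by
  classical
  have := Fintype.ofFinite G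
  have := Fintype.ofFinite T
  by_contra hcon
  have hno : ∀ φ : E →ₗ[K] E, (∀ (t : T) y, φ (σ₂ t y) = σ₁ t (φ y)) → φ = 0 := by
    intro φ hφ
    by_contra h0
    exact hcon ⟨φ, hφ, h0⟩
  obtain ⟨ι₁, hι₁, hn1⟩ := hN1
  obtain ⟨ι₂, hι₂, hn2⟩ := hN2
  have hirrT : Irr σ₁ := by
    refine ⟨hirr.nt, fun W hW => hirr.irr W (fun d w hw => hW _ w hw)⟩
  have hr : ¬ LinearMap.range ι₁ ≤ LinearMap.range (op ρ x ^ m) := by
    intro hr
    apply hn1
    apply h.prj_of_range ρ σ₁ hirr hι₁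
    refine hr.trans ?_
    rintro _ ⟨w, rfl⟩
    refine ⟨l • w, ?_⟩
    rw [← map_pow, hm, map_smul, map_smul]; rfl
  obtain ⟨F, hFT, hF1, hF2⟩ := h.level ρ σ₁ hirrT hx1 hf1 hι₁ hr
  have hF2' := hF2 σ₂ hx2 hno ι₂ hι₂
  set P := op ρ f with hP
  have hPP : P * P = P := by rw [hP, ← map_mul, hff]
  have hPT : ∀ t ∈ T, ρ t * P = P * ρ t := by
    intro t ht
    have h1 := op_cj ρ t f
    rw [h.fT t ht] at h1
    rw [hP]
    conv_rhs => rw [h1]
    rw [mul_assoc, ← map_mul, inv_mul_cancel, map_one, mul_one]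
  have hP1 : ∀ z, P (ι₁ z) = ι₁ z := by
    intro z
    rw [hP, op_comp_hom hι₁ (h.subC h.fZ.1), hf1]; rfl
  have hP2 : ∀ z, P (ι₂ z) = ι₂ z := by
    intro z
    rw [hP, op_comp_hom hι₂ (h.subC h.fZ.1), hf2]; rfl
  obtain ⟨Φ, hΦ, g, hg⟩ := extend hDT hc htr hff (fun t ht => h.fT t ht) hsep ρ ρ (φ := P * F * P) (by
      intro t ht
      change ρ t * (P * F * P) = P * F * P * ρ t
      rw [← mul_assoc, ← mul_assoc, hPT t ht, mul_assoc P, hFT t ht, mul_assoc, mul_assoc, hPT t ht]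
      noncomm_ring) (by
      change P * (P * F * P) = P * F * P
      rw [← mul_assoc, ← mul_assoc, hPP]) (by
      change P * F * P * P = P * F * P
      rw [mul_assoc, hPP])
  obtain ⟨s, hs⟩ := schur hρ Φ (fun t => (hΦ t).symm)
  have key : ∀ (σ : T →* Module.End K E) (ι : E →ₗ[K] V), THom ρ σ ι → (∀ z, P (ι z) = ι z) → ∀ z,
      P (F (ι z)) = s • ι z + trH ρ σ (g.comp ι) z := by
    intro σ ι hι hPι z
    have h1 := LinearMap.congr_fun hg (ι z)
    have h2 : (P * F * P) (ι z) = P (F (ι z)) := by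
      rw [Module.End.mul_apply, Module.End.mul_apply, hPι]
    rw [h2] at h1
    rw [h1, LinearMap.add_apply]
    congr 1
    · change P (Φ (P (ι z))) = _
      rw [hPι, hs, LinearMap.smul_apply, Module.End.one_apply, map_smul, hPι]
    · rw [pt_eq, LinearMap.sum_apply, trH_apply]
      refine Finset.sum_congr rfl fun t _ => ?_
      rw [cjH_apply]
      change ρ t (g (ρ (t : G)⁻¹ (ι z))) = ρ t (g (ι (σ t⁻¹ z)))
      rw [hι t⁻¹ z]; rfl
  have hs1 : s = 1 := by
    by_contra hs1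
    apply hn1
    rw [prj_iff]
    refine ⟨(1 - s)⁻¹ • (g.comp ι₁), ?_⟩
    apply LinearMap.ext
    intro z
    have h1 := key σ₁ ι₁ hι₁ hP1 z
    rw [hF1, hP1] at h1
    have h2 : trH ρ σ₁ (g.comp ι₁) z = (1 - s) • ι₁ z := by
      rw [sub_smul, one_smul]
      conv_rhs => rw [h1]
      rw [add_sub_assoc, ← h1]
      have : s • ι₁ z + (trH ρ σ₁ (g ∘ₗ ι₁)) z - s • ι₁ z = (trH ρ σ₁ (g ∘ₗ ι₁)) z := by abel
      rw [← this, ← h1]
      abel
    have h3 : trH ρ σ₁ ((1 - s)⁻¹ • (g.comp ι₁)) z = (1 - s)⁻¹ • trH ρ σ₁ (g.comp ι₁) z := by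
      rw [trH_apply, trH_apply, Finset.smul_sum]
      refine Finset.sum_congr rfl fun t _ => ?_
      rw [LinearMap.smul_apply, map_smul]
    rw [h3, h2, smul_smul, inv_mul_cancel₀ (sub_ne_zero.2 (Ne.symm hs1)), one_smul]
  apply hn2
  rw [prj_iff]
  refine ⟨-(g.comp ι₂), ?_⟩
  apply LinearMap.ext
  intro z
  have h1 := key σ₂ ι₂ hι₂ hP2 z
  rw [hF2', map_zero, hs1, one_smul] at h1
  have h3 : trH ρ σ₂ (-(g.comp ι₂)) z = - trH ρ σ₂ (g.comp ι₂) z := by
    rw [trH_apply, trH_apply, ← Finset.sum_neg_distrib]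
    refine Finset.sum_congr rfl fun t _ => ?_
    rw [LinearMap.neg_apply, map_neg]
  rw [h3]
  exact eq_neg_of_add_eq_zero_left h1.symm

end

end Cfsg.Agent.Lib.CycG4
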