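import Cfsg.Agent.Lib.CycG2

set_option autoImplicit false
set_option linter.all false

/-!
# The structure of a block with one simple module and a uniserial centre (helper78)
-/

namespace Cfsg.Agent.Lib.CycG5

open Cfsg.Agent.Lib.BrauerMap Cfsg.Agent.Lib.CycG2
open Module Cfsg.Agent.Lib.ModRep
open Cfsg.Agent.Lib.DefOneMod (quotRep quotRep_mk conjRep)

section nil

variable {K : Type*} [Field K] {G : Type*} [Group G]

theorem op_sub [Finite G] {V : Type*} [AddCommGroup V] [Module K V] (ρ : G →* Module.End K V) (W : Submodule K V) (h : Inv ρ W) (a : MonoidAlgebra K G) (w : W) :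
    ((op (subrep ρ W h) a w : W) : V) = op ρ a w := by
  classical
  have := Fintype.ofFinite G
  rw [op_apply, op_apply, AddSubmonoidClass.coe_finsetSum]
  rfl

theorem op_quot [Finite G] {V : Type*} [AddCommGroup V] [Module K V] (ρ : G →* Module.End K V) (W : Submodule K V) (h : Inv ρ W) (a : MonoidAlgebra K G) (v : V) :
    op (quotRep ρ W h) a (W.mkQ v) = W.mkQ (op ρ a v) := by
  classical
  have := Fintype.ofFinite G
  rw [op_apply, op_apply, map_sum]
  rfl

theorem op_conj [Finite G] {V : Type*} [AddCommGroup V] [Module K V] {V' : Type*} [AddCommGroup V'] [Module K V'] (e : V ≃ₗ[K] V')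
    (ρ : G →* Module.End K V) (a : MonoidAlgebra K G) (v : V) :
    op (conjRep e ρ) a (e v) = e (op ρ a v) := by
  classical
  have := Fintype.ofFinite G
  rw [op_apply, op_apply, map_sum]
  refine Finset.sum_congr rfl fun g _ => ?_
  rw [map_smul]
  change _ • e (ρ g (e.symm (e v))) = _
  rw [e.symm_apply_apply]

theorem irr_conj {V : Type*} [AddCommGroup V] [Module K V] {V' : Type*} [AddCommGroup V'] [Module K V'] (e : V ≃ₗ[K] V')
    {ρ : G →* Module.End K V} (h : Irr ρ) : Irr (conjRep e ρ) := by
  have := h.nt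
  refine ⟨e.symm.toEquiv.nontrivial, ?_⟩
  intro W hW
  have h1 : Inv ρ (W.comap e.toLinearMap) := by
    intro g w hw
    change e (ρ g w) ∈ W
    have := hW g (e w) hw
    change e (ρ g (e.symm (e w))) ∈ W at this
    rwa [e.symm_apply_apply] at this
  rcases h.irr _ h1 with h2 | h2
  · left
    rw [eq_bot_iff]
    intro w hw
    have h3 : e.symm w ∈ W.comap e.toLinearMap := by
      change e (e.symm w) ∈ W
      rwa [e.apply_symm_apply]
    rw [h2, Submodule.mem_bot] at h3
    rw [Submodule.mem_bot]
    rw [← e.apply_symm_apply w, h3, map_zero]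
  · right
    rw [eq_top_iff]
    intro w _
    have h3 : e.symm w ∈ W.comap e.toLinearMap := by rw [h2]; trivial
    change e (e.symm w) ∈ W at h3
    rwa [e.apply_symm_apply] at h3

/-- elements acting as zero on irreducible representations act nilpotently -/
theorem nil_act [Finite G] {J : Submodule K (MonoidAlgebra K G)}
    (hJ : ∀ a ∈ J, ∀ (n : ℕ) (τ : G →* Module.End K (Fin n → K)), Irr τ → op τ a = 0) :
    ∀ (n : ℕ) {V : Type*} [AddCommGroup V] [Module K V] [FiniteDimensional K V] (ρ : G →* Module.End K V),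
      finrank K V ≤ n → ∀ z ∈ J ^ n, op ρ z = 0 := by
  intro n
  induction n with
  | zero =>
    intro V _ _ _ ρ hn z _
    have : Subsingleton V := finrank_zero_iff.1 (Nat.le_zero.1 hn)
    apply LinearMap.ext
    intro v
    exact Subsingleton.elim _ _
  | succ n ih =>
    intro V _ _ _ ρ hn z hz
    by_cases h0 : Subsingleton V
    · apply LinearMap.ext
      intro v
      exact Subsingleton.elim _ _
    rw [not_subsingleton_iff_nontrivial] at h0
    obtain ⟨W, hW, -, hW0, hWi⟩ := exists_irr_sub ρ ⊤ top_ne_bot (fun g w _ => trivial)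
    have hq : finrank K (V ⧸ W) ≤ n := by
      have h2 := Submodule.finrank_quotient_add_finrank W
      have h3 : 0 < finrank K W := by
        rw [Module.finrank_pos_iff]
        exact Submodule.nontrivial_iff_ne_bot.2 hW0
      omega
    have hJW : ∀ a ∈ J, ∀ w ∈ W, op ρ a w = 0 := by
      intro a ha w hw
      let e : W ≃ₗ[K] (Fin (finrank K W) → K) := LinearEquiv.ofFinrankEq W (Fin (finrank K W) → K)
        (by rw [Module.finrank_fin_fun])
      have h1 := hJ a ha _ _ (irr_conj e hWi)
      have h2 := op_conj e (subrep ρ W hW) a ⟨w, hw⟩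
      rw [h1, LinearMap.zero_apply] at h2
      have h3 := e.map_eq_zero_iff.1 h2.symm
      have h4 := op_sub ρ W hW a ⟨w, hw⟩
      rw [h3] at h4
      exact h4.symm
    rw [pow_succ'] at hz
    induction hz using Submodule.mul_induction_on' with
    | mem_mul_mem u hu v hv =>
      have h1 := ih (quotRep ρ W hW) hq v hv
      apply LinearMap.ext
      intro w
      rw [map_mul, Module.End.mul_apply]
      have h2 := op_quot ρ W hW v w
      rw [h1, LinearMap.zero_apply] at h2
      have h3 : op ρ v w ∈ W := by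
        rw [Submodule.mkQ_apply] at h2
        exact (Submodule.Quotient.mk_eq_zero W).1 h2.symm
      rw [hJW u hu _ h3]; rfl
    | add a ha b hb ha' hb' =>
      rw [map_add, ha', hb', add_zero]

/-- the left regular representation -/
noncomputable def regRep (K G : Type*) [Field K] [Group G] : G →* Module.End K (MonoidAlgebra K G) :=
  ((Algebra.lmul K (MonoidAlgebra K G)).toRingHom.toMonoidHom).comp (MonoidAlgebra.of K G)

theorem op_regRep [Finite G] (a z : MonoidAlgebra K G) : op (regRep K G) a z = a * z := by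
  classical
  have h1 : op (regRep K G) = Algebra.lmul K (MonoidAlgebra K G) := by
    apply MonoidAlgebra.algHom_ext
    · intro g
      rw [op_single, one_smul]
      rfl
    · exact Subsingleton.elim _ _
  rw [h1]; rfl

theorem nil_pow [Finite G] {J : Submodule K (MonoidAlgebra K G)}
    (hJ : ∀ a ∈ J, ∀ (n : ℕ) (τ : G →* Module.End K (Fin n → K)), Irr τ → op τ a = 0) :
    ∃ n : ℕ, J ^ n = ⊥ := by
  refine ⟨finrank K (MonoidAlgebra K G), ?_⟩
  rw [eq_bot_iff]
  intro z hz
  have h1 := nil_act hJ _ (regRep K G) le_rfl z hz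
  have h2 := op_regRep z (1 : MonoidAlgebra K G)
  rw [h1, mul_one, LinearMap.zero_apply] at h2
  rw [Submodule.mem_bot]
  exact h2.symm

end nil

section forms

variable {K : Type*} [Field K] {G : Type*} [Group G] [Finite G]

/-- the element of the group algebra attached to a functional -/
noncomputable def zt (t : MonoidAlgebra K G →ₗ[K] K) : MonoidAlgebra K G :=
  ofFun (fun g => t (MonoidAlgebra.single g⁻¹ 1))

theorem zt_coeff (t : MonoidAlgebra K G →ₗ[K] K) (g : G) : (zt t).coeff g = t (MonoidAlgebra.single g⁻¹ 1) := rfl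

theorem sum_single [Fintype G] (z : MonoidAlgebra K G) : z = ∑ g : G, (z.coeff g) • MonoidAlgebra.single g (1 : K) := by
  classical
  apply ext_coeff
  intro x
  rw [sum_coeff, Finset.sum_eq_single x]
  · simp
  · intro y _ hy
    simp [hy]
  · intro h; exact absurd (Finset.mem_univ _) h

theorem mul_zt_coeff (t : MonoidAlgebra K G →ₗ[K] K) (z : MonoidAlgebra K G) (g : G) :
    (z * zt t).coeff g = t (MonoidAlgebra.single g⁻¹ 1 * z) := by
  classical
  have := Fintype.ofFinite G
  rw [mul_coeff]
  conv_rhs => rw [sum_single z]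
  rw [Finset.mul_sum, map_sum]
  refine Finset.sum_congr rfl fun y _ => ?_
  rw [zt_coeff, mul_smul_comm, MonoidAlgebra.single_mul_single, one_mul, map_smul, smul_eq_mul]
  congr 3
  group

theorem zt_mul_coeff (t : MonoidAlgebra K G →ₗ[K] K) (z : MonoidAlgebra K G) (g : G) :
    (zt t * z).coeff g = t (z * MonoidAlgebra.single g⁻¹ 1) := by
  classical
  have := Fintype.ofFinite G
  rw [mul_coeff']
  conv_rhs => rw [sum_single z]
  rw [Finset.sum_mul, map_sum]
  refine Finset.sum_congr rfl fun y _ => ?_
  rw [zt_coeff, smul_mul_assoc, MonoidAlgebra.single_mul_single, one_mul, map_smul, smul_eq_mul, mul_comm]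
  congr 3
  group

theorem zt_ext {t t' : MonoidAlgebra K G →ₗ[K] K} {c : K} (h : zt t = c • zt t') : t = c • t' := by
  classical
  have := Fintype.ofFinite G
  have h1 : ∀ g : G, t (MonoidAlgebra.single g 1) = c * t' (MonoidAlgebra.single g 1) := by
    intro g
    have h2 := coeff_eq_of_eq h g⁻¹
    rw [smul_coeff, zt_coeff, zt_coeff, inv_inv] at h2
    exact h2
  apply LinearMap.ext
  intro z
  rw [sum_single z, map_sum, map_sum]
  refine Finset.sum_congr rfl fun g _ => ?_
  rw [map_smul, map_smul, h1, LinearMap.smul_apply]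
  rfl

/-- the trace functional of a representation -/
noncomputable def trF {E : Type*} [AddCommGroup E] [Module K E] (σ : G →* Module.End K E) :
    MonoidAlgebra K G →ₗ[K] K := (LinearMap.trace K E).comp (op σ).toLinearMap

theorem trF_apply {E : Type*} [AddCommGroup E] [Module K E] (σ : G →* Module.End K E) (z : MonoidAlgebra K G) :
    trF σ z = LinearMap.trace K E (op σ z) := rfl

/-- hypotheses -/
structure Uni (f x : MonoidAlgebra K G) (m : ℕ) {E : Type*} [AddCommGroup E] [Module K E]
    (σ : G →* Module.End K E) : Prop where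
  ff : f * f = f
  fc : ∀ z, z * f = f * z
  xc : ∀ z, z * x = x * z
  fx : f * x = x
  xm : x ^ (m + 1) = 0
  soc : ∀ z, (∀ w, w * z = z * w) → f * z = z → x * z = 0 → ∃ c : K, z = c • x ^ m
  irr : Irr σ
  fσ : op σ f = 1
  J0 : ∀ a, f * a = a → op σ a = 0 → ∀ (n : ℕ) (τ : G →* Module.End K (Fin n → K)), Irr τ → op τ a = 0

variable [IsAlgClosed K] {f x : MonoidAlgebra K G} {m : ℕ} {E : Type*} [AddCommGroup E] [Module K E]
  [FiniteDimensional K E] {σ : G →* Module.End K E}

theorem Uni.op_x (h : Uni f x m σ) : op σ x = 0 := by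
  obtain ⟨c, hc⟩ := schur h.irr (op σ x) (by
    intro g
    have h1 := h.xc (MonoidAlgebra.single g 1)
    have h2 := congrArg (op σ) h1
    rw [map_mul, map_mul, op_single, one_smul] at h2
    exact h2.symm)
  have h1 : (op σ x) ^ (m + 1) = 0 := by rw [← map_pow, h.xm, map_zero]
  rw [hc, smul_pow, one_pow] at h1
  have := h.irr.nt
  have h2 : c = 0 := by
    have h3 : c ^ (m + 1) = 0 := by
      by_contra h0
      rcases smul_eq_zero.1 h1 with h4 | h4
      · exact h0 h4
      · exact one_ne_zero h4
    exact pow_eq_zero_iff (Nat.succ_ne_zero m) |>.1 h3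
  rw [hc, h2, zero_smul]

theorem exists_op (hirr : Irr σ) (A : Module.End K E) : ∃ z : MonoidAlgebra K G, op σ z = A := by
  classical
  have := Fintype.ofFinite G
  have h1 := burnside_span hirr A
  rw [Submodule.mem_span_range_iff_exists_fun] at h1
  obtain ⟨cf, hcf⟩ := h1
  refine ⟨∑ g : G, MonoidAlgebra.single g (cf g), ?_⟩
  rw [map_sum, ← hcf]
  exact Finset.sum_congr rfl fun g _ => op_single σ g (cf g)

theorem Uni.soc_of (h : Uni f x m σ) {t : MonoidAlgebra K G →ₗ[K] K} (ht : ∀ a b, t (a * b) = t (b * a))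
    (htf : ∀ a, t (a * f) = t a) (htx : ∀ a, t (a * x) = 0) : ∃ c : K, zt t = c • x ^ m := by
  apply h.soc
  · intro w
    apply ext_coeff
    intro g
    rw [mul_zt_coeff, zt_mul_coeff, ht]
  · apply ext_coeff
    intro g
    rw [mul_zt_coeff, htf, zt_coeff]
  · apply ext_coeff
    intro g
    rw [mul_zt_coeff, htx]; rfl

theorem Uni.trace_form (h : Uni f x m σ) : ∃ c : K, c ≠ 0 ∧ zt (trF σ) = c • x ^ m := by
  obtain ⟨c, hc⟩ := h.soc_of (t := trF σ) (by
    intro a b
    rw [trF_apply, trF_apply, map_mul (op σ), map_mul (op σ), LinearMap.trace_mul_comm]) (by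
    intro a
    rw [trF_apply, trF_apply, map_mul (op σ), h.fσ, mul_one]) (by
    intro a
    rw [trF_apply, map_mul (op σ), h.op_x, mul_zero, map_zero])
  refine ⟨c, ?_, hc⟩
  rintro rfl
  rw [zero_smul] at hc
  have h1 : trF σ = (0 : K) • trF σ := zt_ext (by rw [zero_smul]; exact hc)
  rw [zero_smul] at h1
  have := h.irr.nt
  obtain ⟨e1, he1⟩ := exists_ne (0 : E)
  obtain ⟨l, hl⟩ : ∃ l : Module.Dual K E, l e1 ≠ 0 := by
    by_contra hcon
    push Not at hcon
    exact he1 ((Module.forall_dual_apply_eq_zero_iff K e1).1 hcon)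
  obtain ⟨z, hz⟩ := exists_op h.irr (l.smulRight e1)
  have h2 := LinearMap.congr_fun h1 z
  rw [trF_apply, hz, LinearMap.trace_smulRight] at h2
  exact hl h2

/-- **Structure theorem.** -/
theorem Uni.structure (h : Uni f x m σ) : ∃ (i : MonoidAlgebra K G) (N : ℕ) (a b : Fin N → MonoidAlgebra K G),
    i * i = i ∧ f * i = i ∧ ∑ r, a r * i * b r = f ∧
      ∀ z, ∃ P : Polynomial K, i * z * i = Polynomial.aeval x P * i := by
  classical
  have := Fintype.ofFinite G
  have hnt := h.irr.nt
  -- the ideal
  let J : Submodule K (MonoidAlgebra K G) :=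
    { carrier := {y | f * y = y ∧ op σ y = 0}
      zero_mem' := ⟨mul_zero _, map_zero _⟩
      add_mem' := fun {u v} hu hv => ⟨by rw [mul_add, hu.1, hv.1], by rw [map_add, hu.2, hv.2, add_zero]⟩
      smul_mem' := fun c u hu => ⟨by rw [mul_smul_comm, hu.1], by rw [map_smul, hu.2, smul_zero]⟩ }
  have hJmem : ∀ y, y ∈ J ↔ f * y = y ∧ op σ y = 0 := fun y => Iff.rfl
  obtain ⟨nJ, hnJ⟩ := nil_pow (J := J) (fun y hy n τ hτ => h.J0 y hy.1 hy.2 n τ hτ)
  have hJl : ∀ z, ∀ y ∈ J, z * y ∈ J := by
    intro z y hy
    refine ⟨?_, ?_⟩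
    · rw [← mul_assoc, ← h.fc, mul_assoc, hy.1]
    · rw [map_mul, hy.2, mul_zero]
  have hJr : ∀ z, ∀ y ∈ J, y * z ∈ J := by
    intro z y hy
    refine ⟨?_, ?_⟩
    · rw [← mul_assoc, hy.1]
    · rw [map_mul, hy.2, zero_mul]
  -- rank one idempotent
  obtain ⟨e1, he1⟩ := exists_ne (0 : E)
  obtain ⟨l, hl⟩ : ∃ l : Module.Dual K E, l e1 = 1 := by
    obtain ⟨l, hl⟩ : ∃ l : Module.Dual K E, l e1 ≠ 0 := by
      by_contra hcon
      push Not at hcon
      exact he1 ((Module.forall_dual_apply_eq_zero_iff K e1).1 hcon)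
    exact ⟨(l e1)⁻¹ • l, by rw [LinearMap.smul_apply, smul_eq_mul, inv_mul_cancel₀ hl]⟩
  set A0 : Module.End K E := l.smulRight e1 with hA0
  have hAe : ∀ z, A0 z = l z • e1 := fun z => rfl
  have hAA : A0 * A0 = A0 := by
    apply LinearMap.ext
    intro z
    rw [Module.End.mul_apply, hAe, hAe, map_smul, hl, smul_eq_mul, mul_one]
  obtain ⟨j0, hj0⟩ := exists_op h.irr A0
  set j := f * j0 with hj
  have hjA : op σ j = A0 := by rw [hj, map_mul, h.fσ, hj0, one_mul]
  have hfj : f * j = j := by rw [hj, ← mul_assoc, h.ff]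
  -- idempotent
  obtain ⟨i, hii, hfi, hiA⟩ : ∃ i, i * i = i ∧ f * i = i ∧ op σ i = A0 := by
    obtain ⟨q, n, h1, h2⟩ := H25BpAlg.fitting (k := K) j
    refine ⟨j * Polynomial.aeval j q, h1, by rw [← mul_assoc, hfj], ?_⟩
    have hcm : Commute (Polynomial.aeval j q) j := H25BpAlg.aeval_comm (Commute.refl j) q
    have e1 : op σ (j * Polynomial.aeval j q) * A0 = op σ (j * Polynomial.aeval j q) := by
      have e2 : j * Polynomial.aeval j q = Polynomial.aeval j q * j := hcm.symm
      rw [e2, map_mul, hjA, mul_assoc, hAA]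
    have e2 : ∀ k : ℕ, A0 ^ k * A0 = A0 := by
      intro k
      induction k with
      | zero => rw [pow_zero, one_mul]
      | succ k ih => rw [pow_succ, mul_assoc, hAA, ih]
    have e3 : (1 - op σ (j * Polynomial.aeval j q)) * A0 = 0 := by
      have e4 := congrArg (op σ) h2
      rw [map_mul, map_sub, map_one, map_pow, hjA, map_zero] at e4
      rw [← e2 n, ← mul_assoc, e4, zero_mul]
    rw [sub_mul, one_mul, e1, sub_eq_zero] at e3
    exact e3.symm
  -- full idempotent
  obtain ⟨N, a, b, hsum⟩ : ∃ (N : ℕ) (a b : Fin N → MonoidAlgebra K G), ∑ r, a r * i * b r = f := by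
    let B := Module.finBasis K E
    have ha : ∀ r, ∃ z : MonoidAlgebra K G, op σ z = l.smulRight (B r) := fun r => exists_op h.irr _
    have hb : ∀ r, ∃ z : MonoidAlgebra K G, op σ z = (B.coord r).smulRight e1 := fun r => exists_op h.irr _
    choose a ha using ha
    choose b hb using hb
    set α := ∑ r, a r * i * b r with hα
    have h1 : op σ α = 1 := by
      apply LinearMap.ext
      intro z
      rw [hα, map_sum, LinearMap.sum_apply]
      have h2 : ∀ r, op σ (a r * i * b r) z = B.repr z r • B r := by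
        intro r
        rw [map_mul, map_mul, ha, hb, hiA, Module.End.mul_apply, Module.End.mul_apply]
        change (l.smulRight (B r)) (A0 (B.coord r z • e1)) = _
        rw [map_smul, hAe, hl, one_smul, map_smul, LinearMap.smulRight_apply, hl, one_smul]
        rfl
      rw [Finset.sum_congr rfl (fun r _ => h2 r), B.sum_repr]; rfl
    have hfα : f * α = α := by
      rw [hα, Finset.mul_sum]
      refine Finset.sum_congr rfl fun r _ => ?_
      rw [← mul_assoc, ← mul_assoc, ← h.fc, mul_assoc (a r) f, hfi]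
    have hβ : f - α ∈ J := by
      rw [hJmem]
      exact ⟨by rw [mul_sub, h.ff, hfα], by rw [map_sub, h.fσ, h1, sub_self]⟩
    have hβn : (f - α) ^ nJ = 0 := by
      have h2 : (f - α) ^ nJ ∈ J ^ nJ := Submodule.pow_mem_pow _ hβ nJ
      rw [hnJ, Submodule.mem_bot] at h2
      exact h2
    set Γ := ∑ k ∈ Finset.range nJ, (f - α) ^ k with hΓ
    have h2 : (1 - (f - α)) * Γ = 1 := by
      rw [hΓ, mul_neg_geom_sum, hβn, sub_zero]
    have h3 : α * Γ = f := by
      have h4 : f * (1 - (f - α)) = α := by
        rw [mul_sub, mul_one, mul_sub, h.ff, hfα]; abel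
      rw [← h4, mul_assoc, h2, mul_one]
    refine ⟨_, a, fun r => b r * Γ, ?_⟩
    rw [← h3, hα, Finset.sum_mul]
    exact Finset.sum_congr rfl fun r _ => by rw [mul_assoc, mul_assoc, mul_assoc]
  -- corner elements
  have hcorner : ∀ z, ∃ c : K, i * z * i - c • i ∈ J := by
    intro z
    refine ⟨l (op σ z e1), ?_⟩
    rw [hJmem]
    refine ⟨?_, ?_⟩
    · rw [mul_sub, mul_smul_comm, hfi, ← mul_assoc, ← mul_assoc, hfi]
    · rw [map_sub, map_mul, map_mul, hiA, map_smul, hiA, sub_eq_zero]
      apply LinearMap.ext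
      intro v
      rw [Module.End.mul_apply, Module.End.mul_apply, hAe, hAe, map_smul, map_smul, LinearMap.smul_apply, hAe,
        smul_smul, smul_eq_mul, mul_comm]
  let X : Submodule K (MonoidAlgebra K G) := LinearMap.range (LinearMap.mulLeft K x)
  have hX : ∀ z, x * z ∈ X := fun z => ⟨z, rfl⟩
  have hXl : ∀ z, ∀ y ∈ X, z * y ∈ X := by
    rintro z _ ⟨w, rfl⟩
    rw [LinearMap.mulLeft_apply, ← mul_assoc, h.xc, mul_assoc]
    exact hX _
  have hXr : ∀ z, ∀ y ∈ X, y * z ∈ X := by
    rintro z _ ⟨w, rfl⟩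
    rw [LinearMap.mulLeft_apply, mul_assoc]
    exact hX _
  have hif : i * f = i := by rw [h.fc, hfi]
  -- insertion of the sum
  have hins : ∀ u v, u * f * v = ∑ s, (u * a s * i) * (i * b s * v) := by
    intro u v
    rw [← hsum, Finset.mul_sum, Finset.sum_mul]
    refine Finset.sum_congr rfl fun s _ => ?_
    have : u * a s * i * (i * b s * v) = u * a s * (i * i) * b s * v := by noncomm_ring
    rw [this, hii]; noncomm_ring
  have claimA : ∀ y ∈ J, i * y * i ∈ X ⊔ J * J := by
    intro y hy
    by_contra hcon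
    obtain ⟨ℓ, hℓ0, hℓ1⟩ : ∃ ℓ : MonoidAlgebra K G →ₗ[K] K, (∀ z ∈ X ⊔ J * J, ℓ z = 0) ∧ ℓ (i * y * i) ≠ 0 := by
      have h1 : (X ⊔ J * J).mkQ (i * y * i) ≠ 0 := by
        intro h0
        exact hcon ((Submodule.Quotient.mk_eq_zero _).1 h0)
      obtain ⟨l', hl'⟩ : ∃ l' : Module.Dual K (MonoidAlgebra K G ⧸ (X ⊔ J * J)), l' ((X ⊔ J * J).mkQ (i * y * i)) ≠ 0 := by
        by_contra hc
        push Not at hc
        exact h1 ((Module.forall_dual_apply_eq_zero_iff K _).1 hc)
      refine ⟨l'.comp (X ⊔ J * J).mkQ, ?_, hl'⟩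
      intro z hz
      rw [LinearMap.comp_apply]
      have : (X ⊔ J * J).mkQ z = 0 := (Submodule.Quotient.mk_eq_zero _).2 hz
      rw [this, map_zero]
    -- commutativity modulo the kernel
    have hcm : ∀ u v, ℓ ((i * u * i) * (i * v * i)) = ℓ ((i * v * i) * (i * u * i)) := by
      intro u v
      obtain ⟨c, hc⟩ := hcorner u
      obtain ⟨d, hd⟩ := hcorner v
      set u' := i * u * i - c • i with hu'
      set v' := i * v * i - d • i with hv'
      have e1 : i * u * i = c • i + u' := by rw [hu']; abel
      have e2 : i * v * i = d • i + v' := by rw [hv']; abel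
      have hiu : i * u' = u' := by
        rw [hu', mul_sub, mul_smul_comm, hii, ← mul_assoc, ← mul_assoc, hii]
      have hui : u' * i = u' := by
        rw [hu', sub_mul, smul_mul_assoc, hii, mul_assoc (i * u), hii]
      have hiv : i * v' = v' := by
        rw [hv', mul_sub, mul_smul_comm, hii, ← mul_assoc, ← mul_assoc, hii]
      have hvi : v' * i = v' := by
        rw [hv', sub_mul, smul_mul_assoc, hii, mul_assoc (i * v), hii]
      have e3 : (i * u * i) * (i * v * i) = (c * d) • i + c • v' + d • u' + u' * v' := by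
        rw [e1, e2, add_mul, mul_add, mul_add, smul_mul_smul_comm, hii, smul_mul_assoc, hiv, mul_smul_comm, hui]
        abel
      have e4 : (i * v * i) * (i * u * i) = (c * d) • i + c • v' + d • u' + v' * u' := by
        rw [e1, e2, add_mul, mul_add, mul_add, smul_mul_smul_comm, hii, smul_mul_assoc, hiu, mul_smul_comm, hvi,
          mul_comm d c]
        abel
      have h5 : ℓ (u' * v') = 0 := hℓ0 _ ((le_sup_right : J * J ≤ _) (Submodule.mul_mem_mul hc hd))
      have h6 : ℓ (v' * u') = 0 := hℓ0 _ ((le_sup_right : J * J ≤ _) (Submodule.mul_mem_mul hd hc))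
      rw [e3, e4, map_add ℓ _ (u' * v'), map_add ℓ _ (v' * u'), h5, h6]
    -- the trace form
    let t : MonoidAlgebra K G →ₗ[K] K :=
      { toFun := fun z => ∑ r, ℓ (i * b r * z * a r * i)
        map_add' := by
          intro u v
          rw [← Finset.sum_add_distrib]
          refine Finset.sum_congr rfl fun r _ => ?_
          rw [← map_add]; congr 1; noncomm_ring
        map_smul' := by
          intro c u
          rw [RingHom.id_apply, Finset.smul_sum]
          refine Finset.sum_congr rfl fun r _ => ?_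
          rw [← map_smul]; congr 1
          rw [mul_smul_comm, smul_mul_assoc, smul_mul_assoc] }
    have ht0 : ∀ z, t z = ∑ r, ℓ (i * b r * z * a r * i) := fun z => rfl
    have ht1 : ∀ u v, t (u * v) = ∑ r, ∑ s, ℓ ((i * (b r * u * a s) * i) * (i * (b s * v * a r) * i)) := by
      intro u v
      rw [ht0]
      refine Finset.sum_congr rfl fun r _ => ?_
      rw [← map_sum]
      congr 1
      have e1 : i * b r * (u * v) * a r * i = (i * b r * u) * f * (v * a r * i) := by
        have e2 : (i * b r * u) * f * (v * a r * i) = (i * b r * u * v * a r) * (f * i) := by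
          have : f * (v * a r * i) = v * a r * (f * i) := by
            rw [← mul_assoc, ← mul_assoc, ← h.fc, mul_assoc v f, ← h.fc, ← mul_assoc, mul_assoc (v * a r) f]
          rw [mul_assoc (i * b r * u) f, this]; noncomm_ring
        rw [e2, hfi]; noncomm_ring
      rw [e1, hins]
      refine Finset.sum_congr rfl fun s _ => ?_
      have e3 : (i * b r * u) * a s * i * (i * b s * (v * a r * i)) =
        (i * (b r * u * a s) * i) * (i * (b s * v * a r) * i) := by noncomm_ring
      rw [e3]
    have ht : ∀ u v, t (u * v) = t (v * u) := by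
      intro u v
      rw [ht1, ht1, Finset.sum_comm]
      refine Finset.sum_congr rfl fun r _ => Finset.sum_congr rfl fun s _ => ?_
      rw [hcm]
    have htf : ∀ u, t (u * f) = t u := by
      intro u
      rw [ht0, ht0]
      refine Finset.sum_congr rfl fun r _ => ?_
      congr 1
      have : i * b r * (u * f) * a r * i = i * b r * u * (f * a r) * i := by noncomm_ring
      rw [this, ← h.fc]
      have : i * b r * u * (a r * f) * i = i * b r * u * a r * (f * i) := by noncomm_ring
      rw [this, hfi]
    have htx : ∀ u, t (u * x) = 0 := by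
      intro u
      rw [ht0]
      apply Finset.sum_eq_zero
      intro r _
      apply hℓ0
      apply (le_sup_left : X ≤ _)
      rw [h.xc u]
      exact hXr _ _ (hXr _ _ (hXl _ _ (hX u)))
    obtain ⟨c, hc⟩ := h.soc_of ht htf htx
    obtain ⟨d, hd, hd'⟩ := h.trace_form
    have h5 : t = (c * d⁻¹) • trF σ := by
      apply zt_ext
      rw [hc, hd', smul_smul, mul_assoc, inv_mul_cancel₀ hd, mul_one]
    have h6 : t (i * y * i) = 0 := by
      rw [h5, LinearMap.smul_apply, trF_apply, map_mul (op σ), map_mul (op σ), hy.2, mul_zero, zero_mul, map_zero, smul_zero]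
    have h7 : t (i * y * i) = ℓ (i * y * i) := by
      rw [ht0]
      have e1 : ∀ r, ℓ (i * b r * (i * y * i) * a r * i) = ℓ ((i * y * i) * ((i * a r * i) * (i * b r * i))) := by
        intro r
        have e2 : i * b r * (i * y * i) * a r * i = (i * b r * i) * (i * (y * i * a r) * i) := by
          have : (i * b r * i) * (i * (y * i * a r) * i) = i * b r * (i * i) * y * i * a r * i := by noncomm_ring
          rw [this, hii]; noncomm_ring
        have e3 : (i * y * i) * ((i * a r * i) * (i * b r * i)) = (i * (y * i * a r) * i) * (i * b r * i) := by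
          have : (i * y * i) * ((i * a r * i) * (i * b r * i)) = i * y * (i * i) * a r * i * (i * b r * i) := by noncomm_ring
          rw [this, hii]; noncomm_ring
        rw [e2, e3, hcm]
      rw [Finset.sum_congr rfl (fun r _ => e1 r), ← map_sum, ← Finset.mul_sum]
      have e2 : ∑ r, (i * a r * i) * (i * b r * i) = i := by
        have e3 : ∀ r, (i * a r * i) * (i * b r * i) = i * (a r * i * b r) * i := by
          intro r
          have : (i * a r * i) * (i * b r * i) = i * a r * (i * i) * b r * i := by noncomm_ring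
          rw [this, hii]; noncomm_ring
        rw [Finset.sum_congr rfl (fun r _ => e3 r), ← Finset.sum_mul, ← Finset.mul_sum, hsum, hif, hii]
      rw [e2, mul_assoc, hii]
    exact hℓ1 (by rw [← h7, h6])
  -- the corner ideal
  let Nn : Submodule K (MonoidAlgebra K G) := J.map ((LinearMap.mulLeft K i).comp (LinearMap.mulRight K i))
  have hNn : ∀ y ∈ J, i * y * i ∈ Nn := by
    intro y hy
    refine ⟨y, hy, ?_⟩
    rw [LinearMap.comp_apply, LinearMap.mulLeft_apply, LinearMap.mulRight_apply, mul_assoc]
  have hNn' : ∀ w ∈ Nn, ∃ y ∈ J, w = i * y * i := by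
    rintro _ ⟨y, hy, rfl⟩
    refine ⟨y, hy, ?_⟩
    rw [LinearMap.comp_apply, LinearMap.mulLeft_apply, LinearMap.mulRight_apply, mul_assoc]
  have hNJ : Nn ≤ J := by
    intro w hw
    obtain ⟨y, hy, rfl⟩ := hNn' w hw
    exact hJr _ _ (hJl _ _ hy)
  have claimB : Nn ≤ X ⊔ Nn * Nn := by
    intro w hw
    obtain ⟨y, hy, rfl⟩ := hNn' w hw
    have h1 := claimA y hy
    rw [Submodule.mem_sup] at h1
    obtain ⟨x1, hx1, y1, hy1, hxy⟩ := h1
    have h2 : i * y * i = i * x1 * i + i * y1 * i := by
      rw [← add_mul, ← mul_add, hxy]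
      have : i * (i * y * i) * i = (i * i) * y * (i * i) := by noncomm_ring
      rw [this, hii]
    rw [h2]
    apply Submodule.add_mem
    · exact (le_sup_left : X ≤ _) (hXr _ _ (hXl _ _ hx1))
    · apply (le_sup_right : Nn * Nn ≤ X ⊔ Nn * Nn)
      clear h2 hxy
      induction hy1 using Submodule.mul_induction_on' with
      | mem_mul_mem u hu v hv =>
        have e1 : i * (u * v) * i = (i * u) * f * (v * i) := by
          have : (i * u) * f * (v * i) = i * (u * (f * v)) * i := by noncomm_ring
          rw [this, hv.1]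
        rw [e1, hins]
        apply Submodule.sum_mem
        intro s _
        have e2 : i * u * a s * i = i * (u * a s) * i := by noncomm_ring
        have e3 : i * b s * (v * i) = i * (b s * v) * i := by noncomm_ring
        rw [e2, e3]
        exact Submodule.mul_mem_mul (hNn _ (hJr _ _ hu)) (hNn _ (hJl _ _ hv))
      | add u hu v hv hu' hv' =>
        have : i * (u + v) * i = i * u * i + i * v * i := by noncomm_ring
        rw [this]
        exact Submodule.add_mem _ hu' hv'
  have claimC : ∀ n : ℕ, Nn ≤ X ⊔ Nn ^ (n + 1) := by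
    intro n
    induction n with
    | zero => rw [zero_add, pow_one]; exact le_sup_right
    | succ n ih =>
      refine claimB.trans (sup_le le_sup_left ?_)
      have h1 : Nn * Nn ≤ Nn * (X ⊔ Nn ^ (n + 1)) := mul_le_mul' le_rfl ih
      refine h1.trans ?_
      rw [Submodule.mul_sup, ← pow_succ']
      apply sup_le_sup_right
      rw [Submodule.mul_le]
      intro u _ v hv
      exact hXl _ _ hv
  have hNX : Nn ≤ X := by
    have h1 := claimC nJ
    have h2 : Nn ^ (nJ + 1) ≤ ⊥ := by
      rw [pow_succ]
      have h3 : Nn ^ nJ ≤ J ^ nJ := pow_le_pow_left' hNJ nJ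
      rw [hnJ] at h3
      have h4 : Nn ^ nJ * Nn ≤ ⊥ * Nn := mul_le_mul' h3 le_rfl
      rwa [Submodule.bot_mul] at h4
    rw [le_bot_iff] at h2
    rwa [h2, sup_bot_eq] at h1
  -- polynomials
  have step : ∀ z, ∃ (c : K) (w : MonoidAlgebra K G), i * z * i = c • i + x * (i * w * i) := by
    intro z
    obtain ⟨c, hc⟩ := hcorner z
    have h1 : i * (i * z * i - c • i) * i = i * z * i - c • i := by
      rw [mul_sub, sub_mul, mul_smul_comm, smul_mul_assoc, hii, hii]
      have : i * (i * z * i) * i = (i * i) * z * (i * i) := by noncomm_ring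
      rw [this, hii]
    have h2 := hNX (hNn _ hc)
    rw [h1] at h2
    obtain ⟨w, hw⟩ := h2
    rw [LinearMap.mulLeft_apply] at hw
    refine ⟨c, w, ?_⟩
    have h3 : x * (i * w * i) = i * z * i - c • i := by
      rw [← h1, ← hw]
      have : i * (x * w) * i = (i * x) * w * i := by noncomm_ring
      rw [this, h.xc]; noncomm_ring
    rw [h3]; abel
  have steps : ∀ (n : ℕ) z, ∃ (P : Polynomial K) (w : MonoidAlgebra K G), i * z * i = Polynomial.aeval x P * i + x ^ n * (i * w * i) := by
    intro n
    induction n with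
    | zero =>
      intro z
      exact ⟨0, z, by rw [map_zero, zero_mul, zero_add, pow_zero, one_mul]⟩
    | succ n ih =>
      intro z
      obtain ⟨P, w, hP⟩ := ih z
      obtain ⟨c, w', hw'⟩ := step w
      refine ⟨P + Polynomial.C c * Polynomial.X ^ n, w', ?_⟩
      rw [hP, hw', map_add, map_mul, map_pow, Polynomial.aeval_X, Polynomial.aeval_C, mul_add, mul_smul_comm,
        ← mul_assoc, ← pow_succ, add_mul, Algebra.algebraMap_eq_smul_one, smul_mul_assoc, one_mul, smul_mul_assoc]
      abel
  refine ⟨i, N, a, b, hii, hfi, hsum, ?_⟩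
  intro z
  obtain ⟨P, w, hP⟩ := steps (m + 1) z
  exact ⟨P, by rw [hP, h.xm, zero_mul, add_zero]⟩

end forms

end Cfsg.Agent.Lib.CycG5
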