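import Mathlib
import Cfsg.Agent.Lib.ZStarU
import Cfsg.Agent.Lib.ZStarPow
import Cfsg.Agent.Lib.UniqueInvolution
import Cfsg.Agent.Lib.CoprimeAction
import Cfsg.Agent.Lib.Fitting
import Cfsg.Agent.Lib.QWFusion
import Cfsg.Agent.Lib.DConj67
import Cfsg.Agent.Lib.BG03o
import Cfsg.Agent.Lib.DihSylow
import Cfsg.Agent.Lib.PGroupRankThree
import Cfsg.Agent.Lib.H50Out
import Cfsg.Prelude.Def_CaseTheorems

/-!
Groups in which distinct Sylow 2-subgroups intersect in cyclic groups: the solvable radical modulo `O(G)` is cyclic and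
central (S3306), modulo the odd order theorem (helper30).
-/

set_option autoImplicit false

universe u

namespace Cfsg.Agent.Lib.CycInter

open Subgroup Cfsg
open scoped Pointwise

section Basic

variable {G : Type u} [Group G] [Finite G]

theorem mem_smul_sylow {S : Sylow 2 G} {g x : G} (hx : x ∈ (S : Subgroup G)) :
    g * x * g⁻¹ ∈ ((g • S : Sylow 2 G) : Subgroup G) := by
  rw [Sylow.smul_def, Sylow.pointwise_smul_def, Subgroup.mem_pointwise_smul_iff_inv_smul_mem]
  simpa [MulAut.smul_def, mul_assoc] using hx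

theorem mem_smul_sylow_iff {S : Sylow 2 G} {g x : G} :
    x ∈ ((g • S : Sylow 2 G) : Subgroup G) ↔ g⁻¹ * x * g ∈ (S : Subgroup G) := by
  rw [Sylow.smul_def, Sylow.pointwise_smul_def, Subgroup.mem_pointwise_smul_iff_inv_smul_mem]
  simp [MulAut.smul_def, mul_assoc]

theorem normal_le_sylow {V : Subgroup G} (hV : V.Normal) (hp : IsPGroup 2 V) (S : Sylow 2 G) : V ≤ S :=
  (Cores.le_pCore hV hp).trans (Cores.pCore_le_sylow S)

/-- groups with a cyclic Sylow 2-subgroup are solvable -/
theorem solvable_of_cyclic_sylow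
    (hodd : ∀ {H : Type u} [Group H] [Finite H], Odd (Nat.card H) → Group.IsSolvable H) (n : ℕ) :
    ∀ {H : Type u} [Group H] [Finite H], Nat.card H = n → (∀ P : Sylow 2 H, IsCyclic P) →
      Group.IsSolvable H := by
  induction n using Nat.strong_induction_on with
  | _ n ih =>
  intro H _ _ hn hP
  obtain ⟨P⟩ : Nonempty (Sylow 2 H) := inferInstance
  by_cases hb : (P : Subgroup H) = ⊥
  · apply hodd
    have h1 := P.card_eq_multiplicity
    rw [hb, Subgroup.card_bot] at h1
    have h2 : (Nat.card H).factorization 2 = 0 := by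
      by_contra h
      exact absurd h1.symm (Nat.one_lt_pow h (by norm_num)).ne'
    rw [Nat.factorization_eq_zero_iff] at h2
    rcases h2 with h2 | h2 | h2
    · exact absurd Nat.prime_two h2
    · exact Nat.odd_iff.2 (by omega)
    · exact absurd h2 Nat.card_pos.ne'
  · obtain ⟨K, hK⟩ := QWFusion.exists_index_two_of_cyclic_sylow P (hP P) hb
    have hKn : K.Normal := Subgroup.normal_of_index_eq_two hK
    have hcard : Nat.card K < n := by
      have := K.card_mul_index
      rw [hK, hn] at this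
      have h0 : 0 < Nat.card K := Nat.card_pos
      omega
    have h1 : Group.IsSolvable K := ih _ hcard rfl (fun Q => DConj67.sylow_subgroup_cyclic hP Q)
    have h2 : Group.IsSolvable (H ⧸ K) := by
      have h3 : Nat.card (H ⧸ K) = 2 := hK
      have : Fact (Nat.Prime 2) := ⟨Nat.prime_two⟩
      have h4 : IsCyclic (H ⧸ K) := isCyclic_of_prime_card h3
      letI := h4.commGroup
      infer_instance
    apply H50Out.isSolvable_of_ker (QuotientGroup.mk' K)
    · rw [QuotientGroup.ker_mk']; exact h1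
    · rw [MonoidHom.range_eq_top.2 (QuotientGroup.mk'_surjective K)]
      exact Group.isSolvable_of_isSolvable_injective (f := (Subgroup.topEquiv (G := H ⧸ K)).toMonoidHom)
        (Subgroup.topEquiv).injective

end Basic

/-- `V` is a normal cyclic 2-subgroup which is not central -/
structure Hyp (G : Type u) [Group G] (V : Subgroup G) : Prop where
  ci : ∀ S T : Sylow 2 G, S ≠ T → IsCyclic ↥((S : Subgroup G) ⊓ (T : Subgroup G))
  nor : V.Normal
  cyc : IsCyclic V
  two : IsPGroup 2 V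
  nc : ¬ V ≤ center G

namespace Hyp

variable {G : Type u} [Group G] [Finite G] {V : Subgroup G}

theorem comm_mem (h : Hyp G V) (a b : G) : a * b * a⁻¹ * b⁻¹ ∈ centralizer (V : Set G) := by
  have hn := h.nor
  have h1 := BG03o.commutator_le_centralizer_of_cyclic (C := V) (N := ⊤) h.cyc
    (by rw [Subgroup.normalizer_eq_top])
  exact h1 (Subgroup.commutator_mem_commutator (mem_top a) (mem_top b))

theorem normalC (h : Hyp G V) : (centralizer (V : Set G)).Normal := by
  have := h.nor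
  infer_instance

/-- an element of order four -/
theorem exists_q (h : Hyp G V) : ∃ q ∈ V, orderOf q = 4 := by
  have hc := h.cyc
  obtain ⟨v, hv⟩ := IsCyclic.exists_ofOrder_eq_natCard (α := V)
  obtain ⟨n, hn⟩ := IsPGroup.iff_card.mp h.two
  have hn2 : 2 ≤ n := by
    by_contra hlt
    apply h.nc
    intro x hx
    rw [Subgroup.mem_center_iff]
    intro g
    have hn' := h.nor
    have hcard : Nat.card V ≤ 2 := by
      have h0 : n = 0 ∨ n = 1 := by omega
      rcases h0 with rfl | rfl <;> simp [hn]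
    by_cases hx1 : x = 1
    · simp [hx1]
    · have hgx : g * x * g⁻¹ ∈ V := hn'.conj_mem x hx g
      have hgx1 : g * x * g⁻¹ ≠ 1 := by
        intro hh
        exact hx1 (by simpa using hh)
      by_contra hne
      have hne' : g * x * g⁻¹ ≠ x := fun hh => hne (by
        calc g * x = (g * x * g⁻¹) * g := by group
          _ = x * g := by rw [hh])
      classical
      have : Fintype V := Fintype.ofFinite V
      have h3 : ({1, ⟨x, hx⟩, ⟨g * x * g⁻¹, hgx⟩} : Finset V).card = 3 := by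
        rw [Finset.card_eq_three]
        refine ⟨_, _, _, ?_, ?_, ?_, rfl⟩
        · intro hh; exact hx1 (congrArg Subtype.val hh).symm
        · intro hh; exact hgx1 (congrArg Subtype.val hh).symm
        · intro hh; exact hne' (congrArg Subtype.val hh).symm
      have h4 := Finset.card_le_univ ({1, ⟨x, hx⟩, ⟨g * x * g⁻¹, hgx⟩} : Finset V)
      rw [h3, ← Nat.card_eq_fintype_card] at h4
      omega
  refine ⟨((v ^ (2 ^ (n - 2)) : V) : G), SetLike.coe_mem _, ?_⟩
  rw [Subgroup.orderOf_coe, orderOf_pow_of_dvd (by positivity), hv, hn]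
  · rw [Nat.pow_div (by omega) (by norm_num)]
    have : n - (n - 2) = 2 := by omega
    rw [this]
  · rw [hv, hn]
    exact pow_dvd_pow 2 (by omega)

end Hyp

/-- with a chosen element `q ∈ V` of order four -/
structure Dat (G : Type u) [Group G] (V : Subgroup G) (q : G) : Prop extends Hyp G V where
  qV : q ∈ V
  q4 : orderOf q = 4

/-- noncentral involutions of `C_G(V)` -/
def Inv {G : Type u} [Group G] (V : Subgroup G) (q x : G) : Prop :=
  orderOf x = 2 ∧ x ∈ centralizer (V : Set G) ∧ x ≠ q ^ 2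

theorem sq_of_order_two {G : Type u} [Group G] {x : G} (hx : orderOf x = 2) : x * x = 1 := by
  rw [← pow_two, ← hx, pow_orderOf_eq_one]

theorem order_two_of {G : Type u} [Group G] {x : G} (hx : x * x = 1) (h1 : x ≠ 1) : orderOf x = 2 := by
  rw [← pow_two] at hx
  exact orderOf_eq_prime hx h1

theorem order_two_ne_one {G : Type u} [Group G] {x : G} (hx : orderOf x = 2) : x ≠ 1 := by
  rintro rfl
  rw [orderOf_one] at hx
  norm_num at hx

namespace Dat

variable {G : Type u} [Group G] [Finite G] {V : Subgroup G} {q : G}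

theorem z2 (h : Dat G V q) : orderOf (q ^ 2) = 2 := by
  rw [orderOf_pow_of_dvd (by norm_num) (by rw [h.q4]; norm_num), h.q4]

theorem zV (h : Dat G V q) : q ^ 2 ∈ V := V.pow_mem h.qV 2

theorem zz (h : Dat G V q) : q ^ 2 * q ^ 2 = 1 := sq_of_order_two h.z2

theorem V_le (h : Dat G V q) (S : Sylow 2 G) : V ≤ S := normal_le_sylow h.nor h.two S

/-- `z = q²` is the only involution of a cyclic subgroup containing it -/
theorem eq_z (h : Dat G V q) {K : Subgroup G} (hK : IsCyclic K) (hVK : V ≤ K) {x : G} (hx : x ∈ K)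
    (hx2 : orderOf x = 2) : x = q ^ 2 := by
  have h1 := PGroupRankThree.mem_zpowers_of_isCyclic_subgroup hK (hVK h.zV) hx (by rw [h.z2, hx2])
  obtain ⟨k, hk⟩ := mem_zpowers_iff.mp h1
  rcases Int.even_or_odd k with ⟨m, rfl⟩ | ⟨m, rfl⟩
  · exfalso
    rw [← two_mul, zpow_mul, zpow_ofNat, pow_two (q ^ 2), h.zz, one_zpow] at hk
    exact order_two_ne_one hx2 hk.symm
  · rw [zpow_add, zpow_mul, zpow_ofNat, pow_two (q ^ 2), h.zz, one_zpow, zpow_one, one_mul] at hk
    exact hk.symm

theorem mem_V_of_four (h : Dat G V q) {K : Subgroup G} (hK : IsCyclic K) (hVK : V ≤ K) {x : G} (hx : x ∈ K)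
    (hx4 : orderOf x = 4) : x ∈ V := by
  have h1 := PGroupRankThree.mem_zpowers_of_isCyclic_subgroup hK (hVK h.qV) hx (by rw [h.q4, hx4])
  exact (zpowers_le.2 h.qV) h1

theorem z_central (h : Dat G V q) (g : G) : g * q ^ 2 = q ^ 2 * g := by
  have h1 : g * q ^ 2 * g⁻¹ = q ^ 2 :=
    h.eq_z h.cyc le_rfl (h.nor.conj_mem _ h.zV g) (by rw [SylowTools.orderOf_conj', h.z2])
  calc g * q ^ 2 = (g * q ^ 2 * g⁻¹) * g := by group
    _ = q ^ 2 * g := by rw [h1]

theorem zC (h : Dat G V q) : q ^ 2 ∈ centralizer (V : Set G) := by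
  rw [mem_centralizer_iff]
  intro g _
  exact h.z_central g

/-- (A) -/
theorem unique_of_not_mem (h : Dat G V q) {S T : Sylow 2 G} {t : G} (hS : t ∈ (S : Subgroup G))
    (hT : t ∈ (T : Subgroup G)) (ht : t ∉ centralizer (V : Set G)) : S = T := by
  by_contra hne
  apply ht
  have hc := h.ci S T hne
  rw [mem_centralizer_iff]
  intro v hv
  have h1 : v ∈ (S : Subgroup G) ⊓ (T : Subgroup G) := ⟨h.V_le S hv, h.V_le T hv⟩
  have h2 : t ∈ (S : Subgroup G) ⊓ (T : Subgroup G) := ⟨hS, hT⟩
  letI := hc.commGroup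
  have h3 := mul_comm (⟨v, h1⟩ : ↥((S : Subgroup G) ⊓ (T : Subgroup G))) ⟨t, h2⟩
  exact congrArg Subtype.val h3

/-- (E) uniqueness -/
theorem unique_of_inv (h : Dat G V q) {S T : Sylow 2 G} {x : G} (hx : Inv V q x) (hS : x ∈ (S : Subgroup G))
    (hT : x ∈ (T : Subgroup G)) : S = T := by
  by_contra hne
  exact hx.2.2 (h.eq_z (h.ci S T hne) (le_inf (h.V_le S) (h.V_le T)) ⟨hS, hT⟩ hx.1)

theorem inv_mul_z (h : Dat G V q) {x : G} (hx : Inv V q x) : Inv V q (x * q ^ 2) := by
  refine ⟨order_two_of ?_ ?_, mul_mem hx.2.1 h.zC, ?_⟩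
  · calc x * q ^ 2 * (x * q ^ 2) = x * (q ^ 2 * x) * q ^ 2 := by group
      _ = (x * x) * (q ^ 2 * q ^ 2) := by rw [← h.z_central]; group
      _ = 1 := by rw [sq_of_order_two hx.1, h.zz, one_mul]
  · intro hh
    apply hx.2.2
    rw [eq_comm, ← mul_left_inj (q ^ 2), hh, h.zz]
  · intro hh
    exact order_two_ne_one hx.1 (by simpa using hh)

theorem inv_conj (h : Dat G V q) {x : G} (hx : Inv V q x) (g : G) : Inv V q (g * x * g⁻¹) := by
  refine ⟨by rw [SylowTools.orderOf_conj', hx.1], h.normalC.conj_mem _ hx.2.1 g, ?_⟩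
  intro hh
  apply hx.2.2
  calc x = g⁻¹ * (g * x * g⁻¹) * g := by group
    _ = g⁻¹ * q ^ 2 * g := by rw [hh]
    _ = q ^ 2 := by rw [h.z_central]; group

/-- odd elements centralize `V` -/
theorem odd_mem (h : Dat G V q) {g : G} (hg : Odd (orderOf g)) : g ∈ centralizer (V : Set G) := by
  have hc := h.cyc
  have hn := h.nor
  refine DihSylow.mem_centralizer_of_isPGroup_mulAut (DihSylow.isPGroup_mulAut_of_isCyclic h.two) ?_
    hg.coprime_two_right
  rw [Subgroup.normalizer_eq_top]; exact mem_top g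

theorem exists_not_mem (h : Dat G V q) (S : Sylow 2 G) : ∃ t ∈ (S : Subgroup G), t ∉ centralizer (V : Set G) := by
  by_contra hcon
  push Not at hcon
  have hn := h.normalC
  -- every element is in the centralizer
  have hall : ∀ g : G, g ∈ centralizer (V : Set G) := by
    have h1 : centralizer (V : Set G) = ⊤ := by
      rw [← Subgroup.index_eq_one]
      by_contra hne
      obtain ⟨p, hp, hpd⟩ := Nat.exists_prime_and_dvd hne
      have hpf : Fact p.Prime := ⟨hp⟩
      obtain ⟨P⟩ : Nonempty (Sylow p G) := inferInstance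
      have hle : (P : Subgroup G) ≤ centralizer (V : Set G) := by
        by_cases h2 : p = 2
        · subst h2
          intro x hx
          obtain ⟨g, hg⟩ := SylowTools.sylow_conj S P
          have := hcon _ ((hg x).1 hx)
          have h3 := hn.conj_mem _ this g
          simpa [mul_assoc] using h3
        · intro x hx
          apply h.odd_mem
          obtain ⟨k, hk⟩ := IsPGroup.iff_orderOf.mp P.isPGroup' ⟨x, hx⟩
          rw [Subgroup.orderOf_mk] at hk
          rw [hk]
          exact (hp.odd_of_ne_two h2).pow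
      have h3 := Subgroup.index_dvd_of_le hle
      exact P.not_dvd_index (hpd.trans h3)
    intro g; rw [h1]; exact mem_top g
  apply h.nc
  intro v hv
  rw [Subgroup.mem_center_iff]
  intro g
  exact ((mem_centralizer_iff.mp (hall g)) v hv).symm

/-- (B) -/
theorem exists_out (h : Dat G V q) {D : Subgroup G} (hD : Odd (Nat.card D)) {S : Sylow 2 G}
    (hDS : D ≤ normalizer ((S : Subgroup G) : Set G)) :
    ∃ t ∈ (S : Subgroup G), t ∉ centralizer (V : Set G) ∧ t ∈ centralizer (D : Set G) := by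
  obtain ⟨t, htS, htC⟩ := h.exists_not_mem S
  have hn := h.normalC
  set N : Subgroup G := (S : Subgroup G) ⊓ centralizer (V : Set G) with hN
  have hN2 : IsPGroup 2 N := S.isPGroup'.to_le inf_le_left
  have hDN : D ≤ normalizer (N : Set G) := by
    intro d hd
    rw [Subgroup.mem_normalizer_iff]
    intro x
    have h1 := (Subgroup.mem_normalizer_iff.mp (hDS hd)) x
    constructor
    · rintro ⟨hx1, hx2⟩
      exact ⟨h1.1 hx1, hn.conj_mem _ hx2 d⟩
    · rintro ⟨hx1, hx2⟩
      refine ⟨h1.2 hx1, ?_⟩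
      have := hn.conj_mem _ hx2 d⁻¹
      simpa [mul_assoc] using this
  have htN : t ∈ normalizer (N : Set G) := by
    rw [Subgroup.mem_normalizer_iff]
    intro x
    have h1 := (Subgroup.mem_normalizer_iff.mp (Subgroup.le_normalizer htS)) x
    constructor
    · rintro ⟨hx1, hx2⟩
      exact ⟨h1.1 hx1, hn.conj_mem _ hx2 t⟩
    · rintro ⟨hx1, hx2⟩
      refine ⟨h1.2 hx1, ?_⟩
      have := hn.conj_mem _ hx2 t⁻¹
      simpa [mul_assoc] using this
  have hcop : (Nat.card D).Coprime (Nat.card N) := by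
    obtain ⟨k, hk⟩ := IsPGroup.iff_card.mp hN2
    rw [hk]
    exact Nat.Coprime.pow_right k hD.coprime_two_right
  have hfix : ∀ a ∈ D, a * t * a⁻¹ * t⁻¹ ∈ N := by
    intro a ha
    refine Subgroup.mem_inf.2 ⟨?_, h.comm_mem a t⟩
    exact mul_mem (((Subgroup.mem_normalizer_iff.mp (hDS ha)) t).1 htS) (inv_mem htS)
  obtain ⟨c, hc, hcN⟩ := CoprimeAction.exists_mem_centralizer_of_quotient hDN hcop
    (Or.inr (by
      have := hN2.isNilpotent
      infer_instance)) t htN hfix
  refine ⟨c, ?_, ?_, hc⟩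
  · have hcN1 : t⁻¹ * c ∈ (S : Subgroup G) := hcN.1
    have := mul_mem htS hcN1
    simpa using this
  · intro hcC
    apply htC
    have hcN2 : t⁻¹ * c ∈ centralizer (V : Set G) := hcN.2
    have h1 := mul_mem hcC (inv_mem hcN2)
    simpa using h1

/-- (D) -/
theorem comm_of_normalizes (h : Dat G V q) {D : Subgroup G} (hD : Odd (Nat.card D)) {S : Sylow 2 G}
    (hDS : D ≤ normalizer ((S : Subgroup G) : Set G)) {u : G} (hu : ∃ n, orderOf u = 2 ^ n)
    (huD : u ∈ normalizer (D : Set G)) : u ∈ centralizer (D : Set G) := by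
  obtain ⟨t, htS, htC, htD⟩ := h.exists_out hD hDS
  have hn := h.normalC
  set N := normalizer (D : Set G) with hN
  have htN : t ∈ N := by
    exact Subgroup.centralizer_le_normalizer _ htD
  obtain ⟨n, hn2⟩ := hu
  have hu2 : IsPGroup 2 (zpowers (⟨u, huD⟩ : N)) := by
    apply IsPGroup.of_card (n := n)
    rw [Nat.card_zpowers, Subgroup.orderOf_mk, hn2]
  obtain ⟨W, hW⟩ := hu2.exists_le_sylow
  have ht2 : IsPGroup 2 (zpowers (⟨t, htN⟩ : N)) := by
    obtain ⟨k, hk⟩ := IsPGroup.iff_orderOf.mp S.isPGroup' ⟨t, htS⟩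
    rw [Subgroup.orderOf_mk] at hk
    apply IsPGroup.of_card (n := k)
    rw [Nat.card_zpowers, Subgroup.orderOf_mk, hk]
  obtain ⟨g, hg⟩ := SylowTools.conj_into_sylow W ht2
  have hg' := hg _ (mem_zpowers _)
  obtain ⟨T, hT⟩ := (W.isPGroup'.map N.subtype).exists_le_sylow
  have h1 : (g : G) * t * (g : G)⁻¹ ∈ (T : Subgroup G) := hT ⟨_, hg', rfl⟩
  have h2 : (g : G) * t * (g : G)⁻¹ ∈ (((g : G) • S : Sylow 2 G) : Subgroup G) := mem_smul_sylow htS
  have h3 : (g : G) * t * (g : G)⁻¹ ∉ centralizer (V : Set G) := by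
    intro hh
    apply htC
    have := hn.conj_mem _ hh (g : G)⁻¹
    simpa [mul_assoc] using this
  have hTe := h.unique_of_not_mem h1 h2 h3
  have huT : u ∈ (T : Subgroup G) := hT ⟨_, hW (mem_zpowers _), rfl⟩
  have hDT : ∀ d ∈ D, ∀ x ∈ (T : Subgroup G), d * x * d⁻¹ ∈ (T : Subgroup G) := by
    intro d hd x hx
    rw [hTe, mem_smul_sylow_iff] at hx ⊢
    have hd' : (g : G)⁻¹ * d * g ∈ D := by
      have := (Subgroup.mem_normalizer_iff.mp (inv_mem g.2)) d
      simpa using this.1 hd
    have h5 := ((Subgroup.mem_normalizer_iff.mp (hDS hd')) _).1 hx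
    simpa [mul_assoc] using h5
  rw [mem_centralizer_iff]
  intro d hd
  have h6 : u * d * u⁻¹ * d⁻¹ ∈ (T : Subgroup G) ⊓ D := by
    refine Subgroup.mem_inf.2 ⟨?_, ?_⟩
    · have := mul_mem huT (hDT d hd _ (inv_mem huT))
      simpa [mul_assoc] using this
    · exact mul_mem (((Subgroup.mem_normalizer_iff.mp huD) d).1 hd) (inv_mem hd)
  have h7 : (T : Subgroup G) ⊓ D = ⊥ := by
    apply Subgroup.inf_eq_bot_of_coprime
    obtain ⟨k, hk⟩ := IsPGroup.iff_card.mp T.isPGroup'
    change Nat.Coprime (Nat.card (T : Subgroup G)) _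
    rw [hk]
    exact Nat.Coprime.pow_left k hD.coprime_two_left
  rw [h7, mem_bot] at h6
  rw [mul_inv_eq_one] at h6
  calc d * u = (u * d * u⁻¹) * u := by rw [h6]
    _ = u * d := by group

/-- inverted 2-elements lie in the Sylow subgroup -/
theorem inverts_mem (h : Dat G V q) {x f : G} (hx : Inv V q x) {S : Sylow 2 G} (hxS : x ∈ (S : Subgroup G))
    (hf : ∃ n, orderOf f = 2 ^ n) (hxf : x * f * x⁻¹ = f⁻¹) : f ∈ (S : Subgroup G) := by
  obtain ⟨n, hn⟩ := hf
  have h1 : IsPGroup 2 (zpowers f) := by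
    apply IsPGroup.of_card (n := n)
    rw [Nat.card_zpowers, hn]
  have h2 : IsPGroup 2 (zpowers x) := by
    apply IsPGroup.of_card (n := 1)
    rw [Nat.card_zpowers, hx.1, pow_one]
  have h3 : zpowers x ≤ normalizer (zpowers f : Set G) := by
    rw [zpowers_le]
    apply SylowTools.mem_normalizer_of_forall
    rintro _ ⟨k, rfl⟩
    refine ⟨-k, ?_⟩
    show f ^ (-k) = x * f ^ k * x⁻¹
    rw [← conj_zpow, hxf, inv_zpow, zpow_neg]
  have h4 : IsPGroup 2 ↥(zpowers x ⊔ zpowers f) := IsPGroup.to_sup_of_normal_right' h2 h1 h3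
  obtain ⟨P, hP⟩ := h4.exists_le_sylow
  have h5 : S = P := h.unique_of_inv hx hxS (hP (mem_sup_left (mem_zpowers x)))
  rw [h5]
  exact hP (mem_sup_right (mem_zpowers f))

/-- no element of order four of a Sylow intersection is inverted by an element of `𝓘` -/
theorem not_four (h : Dat G V q) {S T : Sylow 2 G} (hST : S ≠ T) {x f : G} (hx : Inv V q x)
    (hxf : x * f * x⁻¹ = f⁻¹) (hf4 : orderOf f = 4) (hS : f ∈ (S : Subgroup G)) (hT : f ∈ (T : Subgroup G)) :
    False := by
  have hfV : f ∈ V := h.mem_V_of_four (h.ci S T hST) (le_inf (h.V_le S) (h.V_le T)) ⟨hS, hT⟩ hf4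
  have h1 : f * x = x * f := (mem_centralizer_iff.mp hx.2.1) f hfV
  have h2 : f = f⁻¹ := by
    rw [← hxf, ← h1]; group
  have h3 : f * f = 1 := by
    nth_rewrite 2 [h2]
    rw [mul_inv_cancel]
  have h4 : orderOf f ∣ 2 := orderOf_dvd_of_pow_eq_one (by rw [pow_two, h3])
  rw [hf4] at h4
  norm_num at h4

theorem conj_mul_inv {x y : G} (hx : x * x = 1) (hy : y * y = 1) : x * (x * y) * x⁻¹ = (x * y)⁻¹ := by
  have hx' : x⁻¹ = x := inv_eq_of_mul_eq_one_left hx
  have hy' : y⁻¹ = y := inv_eq_of_mul_eq_one_left hy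
  rw [mul_inv_rev, hx', hy', ← mul_assoc, hx, one_mul]

theorem conj_mul_inv' {x y : G} (hx : x * x = 1) (hy : y * y = 1) : y * (x * y) * y⁻¹ = (x * y)⁻¹ := by
  have hx' : x⁻¹ = x := inv_eq_of_mul_eq_one_left hx
  have hy' : y⁻¹ = y := inv_eq_of_mul_eq_one_left hy
  rw [mul_inv_rev, hx', hy']
  calc y * (x * y) * y = y * x * (y * y) := by group
    _ = y * x := by rw [hy, mul_one]

theorem conj_pow_inv {x f : G} (hxf : x * f * x⁻¹ = f⁻¹) (k : ℕ) : x * f ^ k * x⁻¹ = (f ^ k)⁻¹ := by
  rw [← conj_pow, hxf, inv_pow]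

/-- (F) -/
theorem odd_prod (h : Dat G V q) {S T : Sylow 2 G} (hST : S ≠ T) {x y : G} (hx : Inv V q x) (hy : Inv V q y)
    (hxS : x ∈ (S : Subgroup G)) (hyT : y ∈ (T : Subgroup G)) :
    ∃ y', (y' = y ∨ y' = y * q ^ 2) ∧ Odd (orderOf (x * y')) := by
  have hxx := sq_of_order_two hx.1
  have hyy := sq_of_order_two hy.1
  by_cases hodd : Odd (orderOf (x * y))
  · exact ⟨y, Or.inl rfl, hodd⟩
  rw [Nat.not_odd_iff_even] at hodd
  have ho0 : 0 < orderOf (x * y) := orderOf_pos _
  by_cases h4 : 4 ∣ orderOf (x * y)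
  · exfalso
    obtain ⟨k, hk⟩ := h4
    have hk0 : k ≠ 0 := by rintro rfl; omega
    have hf4 : orderOf ((x * y) ^ k) = 4 := by
      rw [orderOf_pow_of_dvd hk0 ⟨4, by rw [hk, mul_comm]⟩, hk]
      exact Nat.mul_div_cancel _ (by omega)
    have e1 := conj_pow_inv (conj_mul_inv hxx hyy) k
    have e2 := conj_pow_inv (conj_mul_inv' hxx hyy) k
    have hfS := h.inverts_mem hx hxS ⟨2, by rw [hf4]; norm_num⟩ e1
    have hfT := h.inverts_mem hy hyT ⟨2, by rw [hf4]; norm_num⟩ e2
    exact h.not_four hST hx e1 hf4 hfS hfT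
  · obtain ⟨k, hk⟩ := hodd
    have hk' : orderOf (x * y) = k * 2 := by omega
    have hk0 : k ≠ 0 := by rintro rfl; omega
    have hkodd : Odd k := by
      rw [← Nat.not_even_iff_odd]
      rintro ⟨m, rfl⟩
      exact h4 ⟨m, by omega⟩
    have hw2 : orderOf ((x * y) ^ k) = 2 := by
      rw [orderOf_pow_of_dvd hk0 ⟨2, hk'⟩, hk']
      exact Nat.mul_div_cancel_left _ (by omega)
    have e1 := conj_pow_inv (conj_mul_inv hxx hyy) k
    have e2 := conj_pow_inv (conj_mul_inv' hxx hyy) k
    have hfS := h.inverts_mem hx hxS ⟨1, by rw [hw2]; norm_num⟩ e1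
    have hfT := h.inverts_mem hy hyT ⟨1, by rw [hw2]; norm_num⟩ e2
    have hz : (x * y) ^ k = q ^ 2 :=
      h.eq_z (h.ci S T hST) (le_inf (h.V_le S) (h.V_le T)) ⟨hfS, hfT⟩ hw2
    refine ⟨y * q ^ 2, Or.inr rfl, ?_⟩
    have h5 : (x * (y * q ^ 2)) ^ k = 1 := by
      rw [← mul_assoc, Commute.mul_pow (h.z_central (x * y)), hz]
      obtain ⟨m, hm⟩ := hkodd
      rw [hm]
      have hzz := h.zz
      generalize q ^ 2 = z at hzz ⊢
      rw [pow_succ, pow_mul, pow_two z, hzz, one_pow, one_mul, hzz]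
    exact Odd.of_dvd_nat hkodd (orderOf_dvd_of_pow_eq_one h5)

/-- (G) -/
theorem exists_swap (h : Dat G V q) {S T : Sylow 2 G} (hST : S ≠ T) {x y : G} (hx : Inv V q x) (hy : Inv V q y)
    (hxS : x ∈ (S : Subgroup G)) (hyT : y ∈ (T : Subgroup G)) :
    ∃ m, Inv V q m ∧ (m * x * m⁻¹ = y ∨ m * x * m⁻¹ = y * q ^ 2) ∧ m • S = T := by
  obtain ⟨y', hy', ho⟩ := h.odd_prod hST hx hy hxS hyT
  have hy'I : Inv V q y' := by
    rcases hy' with rfl | rfl
    · exact hy
    · exact h.inv_mul_z hy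
  have hy'T : y' ∈ (T : Subgroup G) := by
    rcases hy' with rfl | rfl
    · exact hyT
    · exact mul_mem hyT (h.V_le T h.zV)
  have hxx := sq_of_order_two hx.1
  have hyy := sq_of_order_two hy'I.1
  have hx' : x⁻¹ = x := inv_eq_of_mul_eq_one_left hxx
  set r := (x * y') ^ ((orderOf (x * y') + 1) / 2) with hr
  have hrr : r * r = x * y' := by
    obtain ⟨k, hk⟩ := ho
    rw [hr, ← pow_add]
    have e1 : (orderOf (x * y') + 1) / 2 + (orderOf (x * y') + 1) / 2 = orderOf (x * y') + 1 := by omega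
    rw [e1, pow_succ, pow_orderOf_eq_one, one_mul]
  have hxr : x * r * x⁻¹ = r⁻¹ := conj_pow_inv (conj_mul_inv hxx hyy) _
  rw [hx'] at hxr
  have hxr2 : x * r * x * r = 1 := by rw [hxr, inv_mul_cancel]
  have hmm : (x * r) * (x * r) = 1 := by rw [← hxr2]; group
  have hm' : (x * r)⁻¹ = x * r := inv_eq_of_mul_eq_one_left hmm
  have hmx : (x * r) * x * (x * r)⁻¹ = y' := by
    rw [hm']
    calc x * r * x * (x * r) = x * r * (x * x) * r := by group
      _ = x * (r * r) := by rw [hxx]; group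
      _ = (x * x) * y' := by rw [hrr]; group
      _ = y' := by rw [hxx, one_mul]
  have hne : ∀ g : G, g ∈ center G → x * r ≠ g := by
    intro g hg hh
    have h1 : y' = x := by
      rw [← hmx, hh, ← (Subgroup.mem_center_iff.mp hg) x]; group
    exact hST (h.unique_of_inv hx hxS (h1 ▸ hy'T))
  have hmI : Inv V q (x * r) := by
    refine ⟨order_two_of hmm (hne 1 (one_mem _)), mul_mem hx.2.1 (pow_mem (mul_mem hx.2.1 hy'I.2.1) _), ?_⟩
    apply hne
    rw [Subgroup.mem_center_iff]
    exact fun g => h.z_central g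
  refine ⟨x * r, hmI, ?_, ?_⟩
  · rw [hmx]; exact hy'
  · apply h.unique_of_inv hy'I _ hy'T
    rw [← hmx]
    exact mem_smul_sylow hxS

/-- (I) -/
theorem swap_unique (h : Dat G V q) {S T : Sylow 2 G} (hST : S ≠ T) {u u' : G} (hu : Inv V q u)
    (hu' : Inv V q u') (h1 : u • S = T) (h2 : u' • S = T) : u' = u ∨ u' = u * q ^ 2 := by
  have huu := sq_of_order_two hu.1
  have huu' := sq_of_order_two hu'.1
  have h3 : u • T = S := by rw [← h1, smul_smul, huu, one_smul]
  have h4 : u' • T = S := by rw [← h2, smul_smul, huu', one_smul]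
  set e := u * u' with he
  have heS : e • S = S := by rw [he, mul_smul, h2, h3]
  have heT : e • T = T := by rw [he, mul_smul, h4, h1]
  rw [Sylow.smul_eq_iff_mem_normalizer] at heS heT
  have hue : u * e * u⁻¹ = e⁻¹ := conj_mul_inv huu huu'
  obtain ⟨a, k, hk, hak⟩ := Nat.exists_eq_two_pow_mul_odd (orderOf_pos e).ne'
  have hd1 : e ^ (2 ^ a) = 1 := by
    have hdo : orderOf (e ^ (2 ^ a)) = k := by
      rw [orderOf_pow_of_dvd (by positivity) ⟨k, hak⟩, hak]
      exact Nat.mul_div_cancel_left _ (by positivity)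
    have hD : Odd (Nat.card (zpowers (e ^ (2 ^ a)))) := by
      rw [Nat.card_zpowers, hdo]; exact hk
    have hDS : zpowers (e ^ (2 ^ a)) ≤ normalizer ((S : Subgroup G) : Set G) := by
      rw [zpowers_le]; exact pow_mem heS _
    have hud := conj_pow_inv hue (2 ^ a)
    have huN : u ∈ normalizer (zpowers (e ^ (2 ^ a)) : Set G) := by
      apply SylowTools.mem_normalizer_of_forall
      rintro _ ⟨j, rfl⟩
      refine ⟨-j, ?_⟩
      show (e ^ (2 ^ a)) ^ (-j) = u * (e ^ (2 ^ a)) ^ j * u⁻¹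
      rw [← conj_zpow, hud, inv_zpow, zpow_neg]
    have huC := h.comm_of_normalizes hD hDS ⟨1, by rw [hu.1, pow_one]⟩ huN
    have h5 := (mem_centralizer_iff.mp huC) _ (mem_zpowers (e ^ (2 ^ a)))
    have h6 : e ^ (2 ^ a) = (e ^ (2 ^ a))⁻¹ := by
      rw [← hud, ← h5]; group
    have h7 : e ^ (2 ^ a) * e ^ (2 ^ a) = 1 := by
      nth_rewrite 2 [h6]
      rw [mul_inv_cancel]
    have h8 : orderOf (e ^ (2 ^ a)) ∣ 2 := orderOf_dvd_of_pow_eq_one (by rw [pow_two, h7])
    rw [hdo] at h8
    have h9 : k = 1 := by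
      rcases (Nat.dvd_prime Nat.prime_two).1 h8 with h9 | h9
      · exact h9
      · rw [h9] at hk; exact absurd hk (by decide)
    rw [← orderOf_eq_one_iff, hdo, h9]
  have he2 : IsPGroup 2 (zpowers e) := by
    have h5 : orderOf e ∣ 2 ^ a := orderOf_dvd_of_pow_eq_one hd1
    obtain ⟨b, -, hb⟩ := (Nat.dvd_prime_pow Nat.prime_two).1 h5
    apply IsPGroup.of_card (n := b)
    rw [Nat.card_zpowers, hb]
  have hmem : ∀ P : Sylow 2 G, e ∈ normalizer ((P : Subgroup G) : Set G) → e ∈ (P : Subgroup G) := by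
    intro P hP
    have h5 := he2.inf_normalizer_sylow P
    have h6 : e ∈ zpowers e ⊓ normalizer ((P : Subgroup G) : Set G) := Subgroup.mem_inf.2 ⟨mem_zpowers e, hP⟩
    have h7 : e ∈ zpowers e ⊓ (P : Subgroup G) := by
      rw [← h5]; exact h6
    exact (Subgroup.mem_inf.1 h7).2
  have heS' := hmem S heS
  have heT' := hmem T heT
  have hu'e : u' = u * e := by
    rw [he, ← mul_assoc, huu, one_mul]
  by_cases h4d : 4 ∣ orderOf e
  · exfalso
    obtain ⟨j, hj⟩ := h4d
    have hj0 : j ≠ 0 := by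
      rintro rfl
      have := orderOf_pos e
      omega
    have hf4 : orderOf (e ^ j) = 4 := by
      rw [orderOf_pow_of_dvd hj0 ⟨4, by rw [hj, mul_comm]⟩, hj]
      exact Nat.mul_div_cancel _ (by omega)
    exact h.not_four hST hu (conj_pow_inv hue j) hf4 (pow_mem heS' j) (pow_mem heT' j)
  · have h5 : orderOf e ∣ 2 ^ a := orderOf_dvd_of_pow_eq_one hd1
    obtain ⟨b, -, hb⟩ := (Nat.dvd_prime_pow Nat.prime_two).1 h5
    have hb2 : b < 2 := by
      by_contra hb2
      apply h4d
      rw [hb]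
      exact pow_dvd_pow 2 (by omega : 2 ≤ b)
    interval_cases b
    · left
      rw [pow_zero, orderOf_eq_one_iff] at hb
      rw [hu'e, hb, mul_one]
    · right
      rw [pow_one] at hb
      rw [hu'e, h.eq_z (h.ci S T hST) (le_inf (h.V_le S) (h.V_le T)) ⟨heS', heT'⟩ hb]

/-- (H) -/
theorem exists_rep (h : Dat G V q) {S T : Sylow 2 G} (hST : S ≠ T) {x y : G} (hx : Inv V q x)
    (hxS : x ∈ (S : Subgroup G)) (hy : Inv V q y) (hyT : y ∈ (T : Subgroup G)) :
    ∃ c, Inv V q c ∧ c ∈ (T : Subgroup G) ∧ ∀ y, Inv V q y → y ∈ (T : Subgroup G) → y = c ∨ y = c * q ^ 2 := by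
  obtain ⟨m, hm, hmx, hmS⟩ := h.exists_swap hST hx hy hxS hyT
  refine ⟨m * x * m⁻¹, h.inv_conj hx m, hmS ▸ mem_smul_sylow hxS, ?_⟩
  intro y' hy' hy'T
  obtain ⟨m', hm', hmx', hmS'⟩ := h.exists_swap hST hx hy' hxS hy'T
  have h1 : m' * x * m'⁻¹ = m * x * m⁻¹ := by
    rcases h.swap_unique hST hm hm' hmS hmS' with rfl | h2
    · rfl
    · rw [h2, mul_inv_rev]
      calc m * q ^ 2 * x * ((q ^ 2)⁻¹ * m⁻¹) = m * (q ^ 2 * x) * (q ^ 2)⁻¹ * m⁻¹ := by group
        _ = m * x * m⁻¹ := by rw [← h.z_central]; group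
  rcases hmx' with h2 | h2
  · left; rw [← h1, h2]
  · right
    rw [← h1, h2, mul_assoc, h.zz, mul_one]

/-- (E) existence -/
theorem exists_inv (hodd : ∀ {H : Type u} [Group H] [Finite H], Odd (Nat.card H) → Group.IsSolvable H)
    (h : Dat G V q) (hns : ¬ Group.IsSolvable G) : ∃ x, Inv V q x := by
  by_contra hcon
  push Not at hcon
  have hone : ∀ y ∈ centralizer (V : Set G), orderOf y = 2 → y = q ^ 2 := by
    intro y hy hy2
    by_contra hne
    exact hcon y ⟨hy2, hy, hne⟩
  have hVn := h.nor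
  have hVc := h.cyc
  set C := centralizer (V : Set G) with hC
  have hVC : V ≤ C := by
    intro v hv
    rw [hC, mem_centralizer_iff]
    intro w hw
    letI := hVc.commGroup
    exact congrArg Subtype.val (mul_comm (⟨w, hw⟩ : V) ⟨v, hv⟩)
  apply hns
  have hCs : Group.IsSolvable C := by
    refine solvable_of_cyclic_sylow hodd _ rfl ?_
    intro Q
    have hcomm : ∀ y ∈ C, y * q = q * y := fun y hy => ((mem_centralizer_iff.mp hy) q h.qV).symm
    rcases UniqueInvolution.isCyclic_or_quaternion Q.isPGroup' (by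
      intro x y hx hy
      rw [← Subgroup.orderOf_coe, ← Subgroup.orderOf_coe] at hx hy
      have h1 := hone _ (x : C).2 hx
      have h2 := hone _ (y : C).2 hy
      have h3 : y = x := Subtype.ext (Subtype.ext (h2.trans h1.symm))
      rw [h3]
      exact mem_zpowers x) with hcyc | ⟨-, n, hn, ⟨e⟩⟩
    · exact hcyc
    · exfalso
      have hnz : NeZero (2 ^ n) := ⟨by positivity⟩
      set Y := e.symm (QuaternionGroup.xa 0) with hY
      have hYo : orderOf (((Y : C) : G)) = 4 := by
        rw [Subgroup.orderOf_coe, Subgroup.orderOf_coe, hY, MulEquiv.orderOf_eq]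
        exact QuaternionGroup.orderOf_xa 0
      set y : G := ((Y : C) : G) with hy
      have hyC : y ∈ C := (Y : C).2
      have hy2 : y ^ 2 = q ^ 2 := by
        apply hone _ (pow_mem hyC 2)
        rw [orderOf_pow_of_dvd (by norm_num) (by rw [hYo]; norm_num), hYo]
      have hyV : y ∈ V := by
        have hc : Commute y q⁻¹ := (show Commute y q from hcomm y hyC).inv_right
        have h1 : (y * q⁻¹) * (y * q⁻¹) = 1 := by
          rw [← pow_two, hc.mul_pow, hy2, inv_pow, mul_inv_cancel]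
        by_cases h2 : y * q⁻¹ = 1
        · rw [mul_inv_eq_one] at h2
          rw [h2]; exact h.qV
        · have h3 := hone _ (mul_mem hyC (inv_mem (hVC h.qV))) (order_two_of h1 h2)
          have h4 : y = q ^ 2 * q := by rw [← h3]; group
          rw [h4]
          exact mul_mem h.zV h.qV
      have hcen : ∀ w : (Q : Subgroup C), Y * w = w * Y := by
        intro w
        apply Subtype.ext
        apply Subtype.ext
        exact (mem_centralizer_iff.mp (w : C).2) y hyV
      have h5 := congrArg e (hcen (e.symm (QuaternionGroup.a 1)))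
      rw [map_mul, map_mul, hY, MulEquiv.apply_symm_apply, MulEquiv.apply_symm_apply,
        QuaternionGroup.xa_mul_a, QuaternionGroup.a_mul_xa] at h5
      have h6 := QuaternionGroup.xa.inj h5
      have h7 : ((2 : ℕ) : ZMod (2 * 2 ^ n)) = 0 := by
        have : (0 : ZMod (2 * 2 ^ n)) + 1 = 0 - 1 := h6
        push_cast
        linear_combination this
      rw [ZMod.natCast_eq_zero_iff] at h7
      have h8 := Nat.le_of_dvd (by norm_num) h7
      have h9 : 2 ≤ 2 ^ n := Nat.le_self_pow (by omega) 2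
      omega
  have hCn : C.Normal := h.normalC
  apply H50Out.isSolvable_of_ker (QuotientGroup.mk' C)
  · rw [QuotientGroup.ker_mk']; exact hCs
  · have h1 : Group.IsSolvable (G ⧸ C) := by
      letI : CommGroup (G ⧸ C) :=
        { (inferInstance : Group (G ⧸ C)) with
          mul_comm := by
            intro a b
            obtain ⟨a, rfl⟩ := QuotientGroup.mk'_surjective C a
            obtain ⟨b, rfl⟩ := QuotientGroup.mk'_surjective C b
            rw [← map_mul, ← map_mul, ← mul_inv_eq_one, ← map_inv, ← map_mul, QuotientGroup.mk'_apply,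
              QuotientGroup.eq_one_iff]
            have := h.comm_mem a b
            rw [mul_inv_rev]
            rw [mul_assoc, mul_assoc] at this
            rw [mul_assoc]
            exact this }
      infer_instance
    rw [MonoidHom.range_eq_top.2 (QuotientGroup.mk'_surjective C)]
    exact Group.isSolvable_of_isSolvable_injective (f := (Subgroup.topEquiv (G := G ⧸ C)).toMonoidHom)
      (Subgroup.topEquiv).injective

end Dat

section Main

variable {G : Type u} [Group G] [Finite G]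

theorem solvable_of_quotient (K : Subgroup G) [K.Normal] (hK : Group.IsSolvable K)
    (hq : Group.IsSolvable (G ⧸ K)) : Group.IsSolvable G := by
  apply H50Out.isSolvable_of_ker (QuotientGroup.mk' K)
  · rw [QuotientGroup.ker_mk']; exact hK
  · rw [MonoidHom.range_eq_top.2 (QuotientGroup.mk'_surjective K)]
    exact Group.isSolvable_of_isSolvable_injective (f := (Subgroup.topEquiv (G := G ⧸ K)).toMonoidHom)
      (Subgroup.topEquiv).injective

theorem exists_ne_sylow (hodd : ∀ {H : Type u} [Group H] [Finite H], Odd (Nat.card H) → Group.IsSolvable H)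
    (hns : ¬ Group.IsSolvable G) (S : Sylow 2 G) : ∃ T : Sylow 2 G, S ≠ T := by
  by_contra hcon
  push Not at hcon
  have hn : (S : Subgroup G).Normal := by
    constructor
    intro x hx g
    have h1 : S = g • S := hcon _
    have h2 : g * x * g⁻¹ ∈ ((g • S : Sylow 2 G) : Subgroup G) := mem_smul_sylow hx
    rw [← h1] at h2
    exact h2
  apply hns
  apply solvable_of_quotient (S : Subgroup G)
  · have := S.isPGroup'.isNilpotent
    infer_instance
  · apply hodd
    have h1 : ¬ 2 ∣ (S : Subgroup G).index := S.not_dvd_index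
    rw [Subgroup.index] at h1
    exact Nat.odd_iff.2 (by omega)

theorem central_of_cyclic (hodd : ∀ {H : Type u} [Group H] [Finite H], Odd (Nat.card H) → Group.IsSolvable H)
    (hns : ¬ Group.IsSolvable G)
    (hci : ∀ S T : Sylow 2 G, S ≠ T → IsCyclic ↥((S : Subgroup G) ⊓ (T : Subgroup G)))
    (hO : oddCore G = ⊥) {V : Subgroup G} (hV : V.Normal) (hcyc : IsCyclic V) (h2 : IsPGroup 2 V) :
    V ≤ center G := by
  by_contra hnc
  have h0 : Hyp G V := ⟨hci, hV, hcyc, h2, hnc⟩
  obtain ⟨q, hqV, hq4⟩ := h0.exists_q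
  have h : Dat G V q := { toHyp := h0, qV := hqV, q4 := hq4 }
  obtain ⟨x, hx⟩ := h.exists_inv hodd hns
  obtain ⟨S, hxS⟩ : ∃ S : Sylow 2 G, x ∈ (S : Subgroup G) := by
    have h1 : IsPGroup 2 (zpowers x) := by
      apply IsPGroup.of_card (n := 1)
      rw [Nat.card_zpowers, hx.1, pow_one]
    obtain ⟨S, hS⟩ := h1.exists_le_sylow
    exact ⟨S, hS (mem_zpowers x)⟩
  obtain ⟨T, hST⟩ := exists_ne_sylow hodd hns S
  obtain ⟨y, hy, hyT⟩ : ∃ y, Inv V q y ∧ y ∈ (T : Subgroup G) := by
    obtain ⟨g, hg⟩ := MulAction.exists_smul_eq G S T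
    exact ⟨g * x * g⁻¹, h.inv_conj hx g, hg ▸ mem_smul_sylow hxS⟩
  obtain ⟨c, hc, hcT, hcall⟩ := h.exists_rep hST hx hxS hy hyT
  set Z := zpowers (q ^ 2) with hZ
  have hZc : Z ≤ center G := by
    rw [hZ, zpowers_le, Subgroup.mem_center_iff]
    exact fun g => h.z_central g
  have hZn : Z.Normal := by
    constructor
    intro x hx g
    have := (Subgroup.mem_center_iff.mp (hZc hx)) g
    rw [this]
    simpa using hx
  have hZ2 : IsPGroup 2 Z := by
    apply IsPGroup.of_card (n := 1)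
    rw [Nat.card_zpowers, h.z2, pow_one]
  have hZT : ∀ P : Sylow 2 G, Z ≤ P := fun P => by
    rw [hZ, zpowers_le]
    exact h.V_le P h.zV
  have hcore := ZStarPow.pPrimeCore_quotient_central hO Z hZc hZ2
  set π := QuotientGroup.mk' Z with hπ
  have hπs : Function.Surjective π := QuotientGroup.mk'_surjective Z
  have hker : ∀ g, π g = 1 ↔ g ∈ Z := fun g => by
    rw [hπ, QuotientGroup.mk'_apply, QuotientGroup.eq_one_iff]
  have hz : InZStar 2 (π c) := by
    apply ZStarU.inZStar_of_sylow (T.mapSurjective hπs)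
    · exact ⟨c, hcT, rfl⟩
    · intro g' hg'
      obtain ⟨g, rfl⟩ := hπs g'
      rw [← map_inv, ← map_mul, ← map_mul] at hg' ⊢
      obtain ⟨t, ht, htg⟩ := hg'
      have h1 : t⁻¹ * (g * c * g⁻¹) ∈ Z := by
        rw [← hker, map_mul, map_inv, ← htg, inv_mul_cancel]
      have h2 : g * c * g⁻¹ ∈ (T : Subgroup G) := by
        have := mul_mem ht (hZT T h1)
        simpa using this
      rcases hcall _ (h.inv_conj hc g) h2 with h3 | h3
      · rw [h3]
      · rw [h3, map_mul, (hker (q ^ 2)).2 (mem_zpowers _), mul_one]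
  have hall : ∀ g, g * c * g⁻¹ ∈ (T : Subgroup G) := by
    intro g
    have h1 := hz (π g)
    rw [hcore, mem_bot, ← map_inv, ← map_mul, ← map_mul, ← map_inv, ← map_mul, hker] at h1
    have := mul_mem (hZT T h1) hcT
    simpa using this
  obtain ⟨g, hg⟩ := MulAction.exists_smul_eq G T S
  have hcS : c ∈ (S : Subgroup G) := by
    rw [← hg, mem_smul_sylow_iff]
    have := hall g⁻¹
    simpa using this
  exact hST (h.unique_of_inv hc hcS hcT)

theorem main_core (hodd : ∀ {H : Type u} [Group H] [Finite H], Odd (Nat.card H) → Group.IsSolvable H)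
    (hns : ¬ Group.IsSolvable G)
    (hci : ∀ S T : Sylow 2 G, S ≠ T → IsCyclic ↥((S : Subgroup G) ⊓ (T : Subgroup G)))
    (hO : oddCore G = ⊥) (N : Subgroup G) [N.Normal] (hN : Group.IsSolvable N) :
    IsCyclic N ∧ IsPGroup 2 N ∧ N ≤ center G := by
  have hp2 := Fact.mk Nat.prime_two
  have hNO : pPrimeCore 2 N = ⊥ := by
    have h1 := Cores.map_pPrimeCore_subtype_le 2 N
    rw [show pPrimeCore 2 G = ⊥ from hO, le_bot_iff] at h1
    exact (Subgroup.map_eq_bot_iff_of_injective _ N.subtype_injective).mp h1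
  have hcen := Fitting.centralizer_pCore_le_of_solvable (G := N) 2 hNO
  set V := (pCore 2 N).map N.subtype with hV
  have hVn : V.Normal := by
    have : (pCore 2 N).Characteristic := by infer_instance
    exact Cores.normal_map_subtype_of_characteristic _
  have hV2 : IsPGroup 2 V := (Cores.isPGroup_pCore 2 N).map _
  have hVcyc : IsCyclic V := by
    obtain ⟨S⟩ : Nonempty (Sylow 2 G) := inferInstance
    obtain ⟨T, hST⟩ := exists_ne_sylow hodd hns S
    have hle : V ≤ (S : Subgroup G) ⊓ (T : Subgroup G) :=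
      le_inf (normal_le_sylow hVn hV2 S) (normal_le_sylow hVn hV2 T)
    have := hci S T hST
    exact isCyclic_of_injective (Subgroup.inclusion hle) (Subgroup.inclusion_injective hle)
  have hVc := central_of_cyclic hodd hns hci hO hVn hVcyc hV2
  have hNV : N = V := by
    apply le_antisymm
    · intro n hn
      have h1 : (⟨n, hn⟩ : N) ∈ centralizer (pCore 2 N : Set N) := by
        rw [mem_centralizer_iff]
        intro v hv
        apply Subtype.ext
        have h2 : (v : G) ∈ V := ⟨v, hv, rfl⟩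
        exact ((Subgroup.mem_center_iff.mp (hVc h2)) n).symm
      exact ⟨_, hcen h1, rfl⟩
    · exact Subgroup.map_subtype_le _
  rw [← hNV] at hVcyc hV2 hVc
  exact ⟨hVcyc, hV2, hVc⟩

/-- the hypothesis passes to `G/K`, `K` of odd order -/
theorem ci_quotient (hci : ∀ S T : Sylow 2 G, S ≠ T → IsCyclic ↥((S : Subgroup G) ⊓ (T : Subgroup G)))
    (K : Subgroup G) [K.Normal] :
    ∀ S T : Sylow 2 (G ⧸ K), S ≠ T → IsCyclic ↥((S : Subgroup (G ⧸ K)) ⊓ (T : Subgroup (G ⧸ K))) := by
  intro S T hST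
  have hp2 := Fact.mk Nat.prime_two
  set π := QuotientGroup.mk' K with hπ
  have hπs : Function.Surjective π := QuotientGroup.mk'_surjective K
  set Y := ((S : Subgroup (G ⧸ K)) ⊓ (T : Subgroup (G ⧸ K))).comap π with hY
  obtain ⟨Q⟩ : Nonempty (Sylow 2 Y) := inferInstance
  have hlift : ∀ S : Sylow 2 (G ⧸ K), Y ≤ (S : Subgroup (G ⧸ K)).comap π →
      ∃ S₁ : Sylow 2 G, (S₁ : Subgroup G).map π = S ∧ (Q : Subgroup Y).map Y.subtype ≤ S₁ := by
    intro S hYS
    obtain ⟨S₀, hS₀⟩ := Sylow.mapSurjective_surjective hπs 2 S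
    have hS₀' : (S₀ : Subgroup G).map π = S := by
      rw [← hS₀, Sylow.coe_mapSurjective]
    have hle : (S₀ : Subgroup G) ≤ (S : Subgroup (G ⧸ K)).comap π := by
      rw [← hS₀']; exact Subgroup.le_comap_map _ _
    obtain ⟨k, hk, hkQ⟩ := SylowTools.conj_into_of_sylow_of_subgroup (K := (S : Subgroup (G ⧸ K)).comap π)
      hle S₀.isPGroup' (SylowTools.not_dvd_relIndex_of_sylow S₀ hle)
      (H := (Q : Subgroup Y).map Y.subtype) ((Subgroup.map_subtype_le _).trans hYS) (Q.isPGroup'.map _)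
    refine ⟨k⁻¹ • S₀, ?_, ?_⟩
    · have h1 : ∀ x, x ∈ ((k⁻¹ • S₀ : Sylow 2 G) : Subgroup G) ↔ k * x * k⁻¹ ∈ (S₀ : Subgroup G) := by
        intro x; rw [mem_smul_sylow_iff, inv_inv]
      have hk' : π k ∈ (S : Subgroup (G ⧸ K)) := hk
      ext x
      constructor
      · rintro ⟨y, hy, rfl⟩
        have h2 := (h1 y).1 hy
        have h3 : π (k * y * k⁻¹) ∈ (S : Subgroup (G ⧸ K)) := hle h2
        rw [map_mul, map_mul, map_inv] at h3
        have h4 := mul_mem (mul_mem (inv_mem hk') h3) hk'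
        have h5 : (π k)⁻¹ * (π k * π y * (π k)⁻¹) * π k = π y := by group
        rwa [h5] at h4
      · intro hx
        have h2 : π k * x * (π k)⁻¹ ∈ (S₀ : Subgroup G).map π := by
          rw [hS₀']
          exact mul_mem (mul_mem hk' hx) (inv_mem hk')
        obtain ⟨s, hs, hsx⟩ := h2
        refine ⟨k⁻¹ * s * k, (h1 _).2 (by
          have : k * (k⁻¹ * s * k) * k⁻¹ = s := by group
          rw [this]; exact hs), ?_⟩
        rw [map_mul, map_mul, map_inv, hsx]; group
    · intro y hy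
      have h2 := hkQ y hy
      change y ∈ ((k⁻¹ • S₀ : Sylow 2 G) : Subgroup G)
      rw [mem_smul_sylow_iff, inv_inv]
      exact h2
  obtain ⟨S₁, hS₁, hQS⟩ := hlift S (Subgroup.comap_mono inf_le_left)
  obtain ⟨T₁, hT₁, hQT⟩ := hlift T (Subgroup.comap_mono inf_le_right)
  have hne : S₁ ≠ T₁ := by
    rintro rfl
    apply hST
    apply Sylow.ext
    rw [← hS₁, ← hT₁]
  have hcyc := hci S₁ T₁ hne
  have hQcyc : IsCyclic (Q : Subgroup Y) := by
    have h1 : IsCyclic ((Q : Subgroup Y).map Y.subtype) :=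
      isCyclic_of_injective (Subgroup.inclusion (le_inf hQS hQT)) (Subgroup.inclusion_injective _)
    exact isCyclic_of_injective (Y.subtype.subgroupMap Q) (by
      intro x y hxy
      have h2 := congrArg Subtype.val hxy
      exact Subtype.ext (Y.subtype_injective h2))
  let f : Y →* ↥((S : Subgroup (G ⧸ K)) ⊓ (T : Subgroup (G ⧸ K))) :=
    (π.comp Y.subtype).codRestrict _ (fun y => y.2)
  have hf : Function.Surjective f := by
    rintro ⟨x, hx⟩
    obtain ⟨g, rfl⟩ := hπs x
    exact ⟨⟨g, hx⟩, rfl⟩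
  have htop : ((Q.mapSurjective hf : Sylow 2 ↥((S : Subgroup (G ⧸ K)) ⊓ (T : Subgroup (G ⧸ K)))) :
      Subgroup ↥((S : Subgroup (G ⧸ K)) ⊓ (T : Subgroup (G ⧸ K)))) = ⊤ := by
    have h1 : IsPGroup 2 (⊤ : Subgroup ↥((S : Subgroup (G ⧸ K)) ⊓ (T : Subgroup (G ⧸ K)))) :=
      (S.isPGroup'.to_le inf_le_left).to_subgroup _
    exact ((Q.mapSurjective hf).is_maximal' h1 le_top).symm
  rw [Sylow.coe_mapSurjective] at htop
  have hg : Function.Surjective (f.comp (Q : Subgroup Y).subtype) := by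
    intro x
    have : x ∈ (Q : Subgroup Y).map f := by rw [htop]; exact mem_top x
    obtain ⟨y, hy, hyx⟩ := this
    exact ⟨⟨y, hy⟩, hyx⟩
  exact isCyclic_of_surjective _ hg

theorem main (hodd : ∀ {H : Type u} [Group H] [Finite H], Odd (Nat.card H) → Group.IsSolvable H)
    (hns : ¬ Group.IsSolvable G)
    (hC : ∀ S T : Sylow 2 G, S ≠ T → IsCyclic ↥((S : Subgroup G) ⊓ (T : Subgroup G)))
    (N : Subgroup G) [N.Normal] (hN : Group.IsSolvable ↥N) :
    IsCyclic ↥(N.map (QuotientGroup.mk' (Cfsg.oddCore G))) ∧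
      IsPGroup 2 ↥(N.map (QuotientGroup.mk' (Cfsg.oddCore G))) ∧
      N.map (QuotientGroup.mk' (Cfsg.oddCore G)) ≤ Subgroup.center (G ⧸ Cfsg.oddCore G) := by
  have hNn : (N.map (QuotientGroup.mk' (Cfsg.oddCore G))).Normal :=
    Subgroup.Normal.map inferInstance _ (QuotientGroup.mk'_surjective _)
  refine main_core hodd ?_ (ci_quotient hC _) (Cores.pPrimeCore_quotient_pPrimeCore 2 G) _ ?_
  · intro hs
    apply hns
    refine solvable_of_quotient (Cfsg.oddCore G) (hodd ?_) hs
    have := Cores.coprime_card_pPrimeCore 2 G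
    exact Nat.coprime_two_right.1 this
  · exact Group.isSolvable_of_surjective (f := (QuotientGroup.mk' (Cfsg.oddCore G)).subgroupMap N)
      ((QuotientGroup.mk' (Cfsg.oddCore G)).subgroupMap_surjective N)

end Main

end Cfsg.Agent.Lib.CycInter
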