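import Cfsg.Agent.Lib.CycG12
import Cfsg.Agent.Lib.CycDefect

set_option autoImplicit false
set_option linter.all false

/-!
# Blocks with cyclic defect group: `e ≤ l(B)` (helper78)
-/

namespace Cfsg.Agent.Lib.CycRank

open Cfsg Cfsg.Agent.Lib.BlockRing Cfsg.Agent.Lib.BlockGA Cfsg.Agent.Lib.BlockAlg
open Cfsg.Agent.Lib.PairMax Cfsg.Agent.Lib.AbCount

universe u

/-- **`e ≤ l(B)` for a block with cyclic defect group** (hypotheses of S4695). -/
theorem le_rank {G : Type u} [Group G] [Finite G] (p : ℕ) [hp : Fact p.Prime] (M : Ideal AlgInt)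
    (hM : IsPModular p M) (D : Subgroup G) (hD : IsCyclic D) (a : ℕ) (ha : 1 ≤ a) (hDa : Nat.card D = p ^ a)
    (B : Set (IrrCharacter G)) (hB : IsPBlock M B) (hBD : IsDefectGroup p M B D)
    (b : Set (IrrCharacter (Subgroup.centralizer (D : Set G))))
    (hind : IsInducedBlock M (Subgroup.centralizer (D : Set G)) b B) (T : Subgroup G)
    (hT : ∀ g : G, g ∈ T ↔ (g ∈ Subgroup.normalizer (D : Set G) ∧ ∀ θ ∈ b,
      ∀ θ' : IrrCharacter (Subgroup.centralizer (D : Set G)),
        (∀ h h' : Subgroup.centralizer (D : Set G), (h' : G) = g * h * g⁻¹ →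
          (θ' : Subgroup.centralizer (D : Set G) → ℂ) h' = (θ : Subgroup.centralizer (D : Set G) → ℂ) h) → θ' ∈ b))
    (e : ℕ) (he : (Subgroup.centralizer (D : Set G)).relIndex T = e) : e ≤ blockRank p B := by
  have hMm : M.IsMaximal := hM.2.1
  have hch : CharP (Kf M) p := charP_Kf hM
  have hab : ∀ x ∈ D, ∀ y ∈ D, x * y = y * x := by
    intro x hx y hy
    letI := hD.commGroup
    exact congrArg Subtype.val (mul_comm (⟨x, hx⟩ : D) ⟨y, hy⟩)
  have h := AbMax.of hB hBD hab hind
  have hD1 : D ≠ ⊥ := by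
    rintro rfl
    rw [Subgroup.card_bot] at hDa
    exact (Nat.one_lt_pow (by omega) hp.out.one_lt).ne hDa
  have h1 := CycG12.le_rank_aux hM h hD hD1
  have h2 := (CycDef.exists_free p M hM D hD a ha hDa B hB hBD b hind T hT e he).1
  rw [← h2, he] at h1
  exact h1

end Cfsg.Agent.Lib.CycRank
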