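import Mathlib
import Cfsg.Agent.Lib.DefOneMod

set_option autoImplicit false
set_option linter.all false

/-!
# Relative traces and cyclic trivial-intersection subgroups (helper78)

For a representation `V` of `G` in characteristic `p` and a cyclic subgroup `P` of order `q = p ^ n`,
an endomorphism of the form `∑ x ∈ P, x h x⁻¹` has image in `(u - 1) ^ (q - ℓ) V` as soon as
`(u - 1) ^ ℓ = 0`.
-/

namespace Cfsg.Agent.Lib.CycTI

open Module Cfsg.Agent.Lib.ModRep Cfsg.Agent.Lib.DefOneMod

section Trace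

variable {k : Type*} [Field k]

/-- `1 + a + ... + a^(q-1) = (a-1)^(q-1)` in characteristic `p`, `q = p ^ n`. -/
theorem geom_char {p : ℕ} [hp : Fact p.Prime] [CharP k p] {A : Type*} [Ring A] [Algebra k A] (n : ℕ) (a : A) :
    ∑ i ∈ Finset.range (p ^ n), a ^ i = (a - 1) ^ (p ^ n - 1) := by
  have h1 : ∑ i ∈ Finset.range (p ^ n), (Polynomial.X : Polynomial k) ^ i = (Polynomial.X - 1) ^ (p ^ n - 1) := by
    have h0 : (Polynomial.X - 1 : Polynomial k) ≠ 0 := by
      have := Polynomial.X_sub_C_ne_zero (1 : k)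
      simpa using this
    apply mul_right_cancel₀ h0
    rw [geom_sum_mul, ← pow_succ, Nat.sub_add_cancel (Nat.one_le_iff_ne_zero.2 (pow_ne_zero _ hp.out.ne_zero)),
      sub_pow_char_pow, one_pow]
  have h2 := congrArg (Polynomial.aeval (R := k) a) h1
  simpa using h2

variable {V W : Type*} [AddCommGroup V] [Module k V] [AddCommGroup W] [Module k W]

/-- the trace `∑ a^i h b^i` (here `b = a⁻¹` on the other side) lands in the image of `(a-1)^(q-ℓ)` if
`(b-1)^ℓ = 0`. -/
theorem trace_range {p : ℕ} [hp : Fact p.Prime] [CharP k p] (n : ℕ) (a : Module.End k W) (b : Module.End k V)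
    (ℓ : ℕ) (hb : (b - 1) ^ ℓ = 0) (h : V →ₗ[k] W) :
    ∃ h' : V →ₗ[k] W, ∑ i ∈ Finset.range (p ^ n), (a ^ i).comp (h.comp (b ^ i)) = ((a - 1) ^ (p ^ n - ℓ)).comp h' := by
  classical
  -- operators on `Hom(V,W)`
  let L : Module.End k (V →ₗ[k] W) := 
    { toFun := fun f => a.comp f
      map_add' := fun f g => LinearMap.comp_add _ _ _
      map_smul' := fun c f => by simp [LinearMap.comp_smul] }
  let R : Module.End k (V →ₗ[k] W) := 
    { toFun := fun f => f.comp b
      map_add' := fun f g => LinearMap.add_comp _ _ _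
      map_smul' := fun c f => by simp [LinearMap.smul_comp] }
  have hL : ∀ (f : V →ₗ[k] W), L f = a.comp f := fun f => rfl
  have hR : ∀ (f : V →ₗ[k] W), R f = f.comp b := fun f => rfl
  have hLR : Commute L R := by
    apply LinearMap.ext
    intro f
    change L (R f) = R (L f)
    rw [hL, hR, hL, hR, LinearMap.comp_assoc]
  have hLp : ∀ (i : ℕ) (f : V →ₗ[k] W), (L ^ i) f = (a ^ i).comp f := by
    intro i
    induction i with
    | zero => intro f; rw [pow_zero, pow_zero]; rfl
    | succ i ih =>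
      intro f
      rw [pow_succ', Module.End.mul_apply, ih, hL, pow_succ']
      rfl
  have hRp : ∀ (i : ℕ) (f : V →ₗ[k] W), (R ^ i) f = f.comp (b ^ i) := by
    intro i
    induction i with
    | zero => intro f; rw [pow_zero, pow_zero]; rfl
    | succ i ih =>
      intro f
      rw [pow_succ', Module.End.mul_apply, ih, hR, pow_succ]
      rfl
  have hL1 : ∀ (i : ℕ) (f : V →ₗ[k] W), ((L - 1) ^ i) f = ((a - 1) ^ i).comp f := by
    intro i
    induction i with
    | zero => intro f; rw [pow_zero, pow_zero]; rfl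
    | succ i ih =>
      intro f
      rw [pow_succ', Module.End.mul_apply, ih, LinearMap.sub_apply, Module.End.one_apply, hL, pow_succ' (a - 1)]
      rw [Module.End.mul_eq_comp, LinearMap.comp_assoc, LinearMap.sub_comp]
      rfl
  have hR1 : ∀ (i : ℕ) (f : V →ₗ[k] W), ((R - 1) ^ i) f = f.comp ((b - 1) ^ i) := by
    intro i
    induction i with
    | zero => intro f; rw [pow_zero, pow_zero]; rfl
    | succ i ih =>
      intro f
      rw [pow_succ', Module.End.mul_apply, ih, LinearMap.sub_apply, Module.End.one_apply, hR, pow_succ (b - 1)]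
      rw [Module.End.mul_eq_comp, ← LinearMap.comp_assoc, LinearMap.comp_sub]
      rfl
  have hRl : ∀ i, ℓ ≤ i → (R - 1) ^ i = 0 := by
    intro i hi
    apply LinearMap.ext
    intro f
    rw [hR1]
    obtain ⟨j, rfl⟩ := Nat.exists_eq_add_of_le hi
    rw [pow_add, hb, zero_mul]
    simp
  have h1 : ∑ i ∈ Finset.range (p ^ n), (a ^ i).comp (h.comp (b ^ i)) = 
      (∑ i ∈ Finset.range (p ^ n), (L * R) ^ i) h := by
    rw [LinearMap.sum_apply]
    refine Finset.sum_congr rfl fun i _ => ?_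
    rw [hLR.mul_pow, Module.End.mul_apply, hRp, hLp]
  rw [h1, geom_char (k := k) n]
  have h2 : L * R - 1 = (L - 1) * R + (R - 1) := by
    rw [sub_mul, one_mul]; abel
  have hc1 : Commute ((L - 1) * R) (R - 1) := by
    apply Commute.mul_left
    · exact (hLR.sub_left (Commute.one_left _)).sub_right ((Commute.refl L).sub_left (Commute.one_left _) |> fun _ => Commute.one_right _)
    · exact (Commute.refl R).sub_right (Commute.one_right _)
  have hc2 : Commute (L - 1) R := hLR.sub_left (Commute.one_left _)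
  rw [h2, hc1.add_pow]
  have h3 : ∀ m ∈ Finset.range (p ^ n - 1 + 1), ∃ h' : V →ₗ[k] W,
      (((L - 1) * R) ^ m * (R - 1) ^ (p ^ n - 1 - m) * ((p ^ n - 1).choose m : Module.End k (V →ₗ[k] W))) h
      = ((a - 1) ^ (p ^ n - ℓ)).comp h' := by
    intro m hm
    rw [Finset.mem_range] at hm
    by_cases hml : p ^ n - 1 - m < ℓ
    · have h4 : p ^ n - ℓ ≤ m := by omega
      refine ⟨((a - 1) ^ (m - (p ^ n - ℓ))).comp ((R ^ m * (R - 1) ^ (p ^ n - 1 - m) *
        ((p ^ n - 1).choose m : Module.End k (V →ₗ[k] W))) h), ?_⟩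
      rw [← LinearMap.comp_assoc, ← Module.End.mul_eq_comp, ← pow_add, Nat.add_sub_cancel' h4, ← hL1, 
        ← Module.End.mul_apply, hc2.mul_pow, mul_assoc, mul_assoc, mul_assoc]
    · refine ⟨0, ?_⟩
      rw [hRl _ (not_lt.1 hml)]
      simp
  choose! F hF using h3
  refine ⟨∑ m ∈ Finset.range (p ^ n - 1 + 1), F m, ?_⟩
  rw [LinearMap.sum_apply, Finset.sum_congr rfl hF]
  apply LinearMap.ext
  intro v
  simp [LinearMap.sum_apply, map_sum]

end Trace

section RelTrace

variable {k : Type*} [Field k] {G : Type*} [Group G]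
variable {V W : Type*} [AddCommGroup V] [Module k V] [AddCommGroup W] [Module k W]

/-- Relative trace from `N` to `G` of an `N`-equivariant map, `P ≤ N` with `P ∩ N^g = 1` for `g ∉ N`. -/
theorem relTrace [Finite G] {P N : Subgroup G} [Fintype P] (PN : P ≤ N) (hTI : TI P N)
    (ρ : G →* Module.End k V) (σ : G →* Module.End k W) (F : V →ₗ[k] W)
    (hF : ∀ n ∈ N, (σ n).comp F = F.comp (ρ n)) :
    ∃ (Φ : V →ₗ[k] W) (h : V →ₗ[k] W), (∀ g, (σ g).comp Φ = Φ.comp (ρ g)) ∧
      Φ = F + ∑ x : P, (σ x).comp (h.comp (ρ (x : G)⁻¹)) := by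
  classical
  have := Fintype.ofFinite (G ⧸ N)
  let A : G → (V →ₗ[k] W) := fun g => (σ g).comp (F.comp (ρ g⁻¹))
  have hcomp : ∀ (σ : G →* Module.End k W) (a b : G), (σ a).comp (σ b) = σ (a * b) := by
    intro σ a b; rw [map_mul]; rfl
  have hcomp' : ∀ (σ : G →* Module.End k V) (a b : G), (σ a).comp (σ b) = σ (a * b) := by
    intro σ a b; rw [map_mul]; rfl
  have hone : ∀ f : V →ₗ[k] W, f.comp (ρ 1) = f := by intro f; rw [map_one]; rfl
  have hA : ∀ g, ∀ n ∈ N, A (g * n) = A g := by
    intro g n hn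
    change (σ (g * n)).comp (F.comp (ρ (g * n)⁻¹)) = (σ g).comp (F.comp (ρ g⁻¹))
    rw [mul_inv_rev, ← hcomp', ← LinearMap.comp_assoc _ (ρ n⁻¹) F, ← hF _ (N.inv_mem hn), 
      LinearMap.comp_assoc, ← LinearMap.comp_assoc _ (σ n⁻¹) (σ (g * n)), hcomp]
    congr 2
    group
  have hA1 : ∀ x g, (σ x).comp ((A g).comp (ρ x⁻¹)) = A (x * g) := by
    intro x g
    change (σ x).comp (((σ g).comp (F.comp (ρ g⁻¹))).comp (ρ x⁻¹)) = (σ (x * g)).comp (F.comp (ρ (x * g)⁻¹))
    rw [mul_inv_rev, ← hcomp, ← hcomp']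
    simp only [LinearMap.comp_assoc]
  let B : G ⧸ N → (V →ₗ[k] W) := Quotient.lift (s := QuotientGroup.leftRel N) A (by
    intro a b hab
    have h1 : a⁻¹ * b ∈ N := QuotientGroup.leftRel_apply.1 hab
    have h2 := hA a _ h1
    rw [mul_inv_cancel_left] at h2
    exact h2.symm)
  have hB : ∀ g : G, B (g : G ⧸ N) = A g := fun g => rfl
  have hB1 : ∀ (x : G) (q : G ⧸ N), (σ x).comp ((B q).comp (ρ x⁻¹)) = B (x • q) := by
    intro x q
    induction q using QuotientGroup.induction_on with
    | H g => exact hA1 x g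
  -- the free part
  let X := {q : G ⧸ N // q ≠ ((1 : G) : G ⧸ N)}
  have hfix : ∀ x ∈ P, x • ((1 : G) : G ⧸ N) = ((1 : G) : G ⧸ N) := by
    intro x hx
    change ((x * 1 : G) : G ⧸ N) = _
    rw [QuotientGroup.eq, mul_one, mul_one]
    exact N.inv_mem (PN hx)
  let act : MulAction P X :=
    { smul := fun x q => ⟨(x : G) • q.1, by
        intro h
        apply q.2
        rw [← inv_smul_smul (x : G) q.1, h]
        exact hfix _ (P.inv_mem x.2)⟩
      one_smul := fun q => Subtype.ext (one_smul G q.1)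
      mul_smul := fun x y q => Subtype.ext (mul_smul (x : G) (y : G) q.1) }
  let T : P → (V →ₗ[k] W) →+ (V →ₗ[k] W) := fun x =>
    { toFun := fun f => (σ x).comp (f.comp (ρ (x : G)⁻¹))
      map_zero' := by simp
      map_add' := fun f g => by rw [LinearMap.add_comp, LinearMap.comp_add] }
  obtain ⟨w, hw⟩ := sum_free (X := X) T (fun q => B q.1) (by
      intro x q
      exact (hB1 x q.1).symm) (by
      intro x q h
      have h1 : (x : G) • q.1 = q.1 := congrArg Subtype.val h
      obtain ⟨q, hq⟩ := q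
      induction q using QuotientGroup.induction_on with
      | H g =>
        by_contra hx
        have hg : g ∉ N := by
          intro hg
          apply hq
          rw [QuotientGroup.eq, mul_one]
          exact N.inv_mem hg
        have hx1 : (x : G) ≠ 1 := fun h => hx (Subtype.ext h)
        apply hTI g hg x x.2 hx1
        change ((x * g : G) : G ⧸ N) = (g : G ⧸ N) at h1
        rw [QuotientGroup.eq] at h1
        have h2 := N.inv_mem h1
        have h3 : ((x * g : G)⁻¹ * g)⁻¹ = g⁻¹ * x * g := by group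
        rwa [h3] at h2)
  refine ⟨∑ q : G ⧸ N, B q, w, ?_, ?_⟩
  · intro g
    have h1 : (∑ q : G ⧸ N, B q) = (σ g).comp ((∑ q : G ⧸ N, B q).comp (ρ g⁻¹)) := by
      have h2 : (∑ q : G ⧸ N, B q).comp (ρ g⁻¹) = ∑ q : G ⧸ N, (B q).comp (ρ g⁻¹) := by
        apply LinearMap.ext; intro v; simp [LinearMap.sum_apply]
      have h3 : (σ g).comp (∑ q : G ⧸ N, (B q).comp (ρ g⁻¹)) = ∑ q : G ⧸ N, (σ g).comp ((B q).comp (ρ g⁻¹)) := by
        apply LinearMap.ext; intro v; simp [LinearMap.sum_apply]
      rw [h2, h3, Finset.sum_congr rfl (fun q _ => hB1 g q)]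
      exact (Equiv.sum_comp (MulAction.toPerm g) (fun q : G ⧸ N => B q)).symm
    conv_rhs => rw [h1]
    rw [LinearMap.comp_assoc, LinearMap.comp_assoc, hcomp', inv_mul_cancel, hone]
  · rw [← Finset.add_sum_erase _ _ (Finset.mem_univ ((1 : G) : G ⧸ N))]
    congr 1
    · rw [hB]
      change (σ 1).comp (F.comp (ρ 1⁻¹)) = F
      rw [inv_one, hone, map_one]; rfl
    · refine Eq.trans ?_ hw
      exact (Finset.sum_subtype (Finset.univ.erase ((1 : G) : G ⧸ N)) (p := fun q => q ≠ ((1 : G) : G ⧸ N))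
        (by intro q; simp) (fun q => B q))

/-- the sum over a cyclic group as a sum over exponents -/
theorem sum_zpowers [Finite G] {u : G} [Fintype (Subgroup.zpowers u)] {M : Type*} [AddCommMonoid M] (f : G → M) :
    ∑ x : Subgroup.zpowers u, f x = ∑ i ∈ Finset.range (orderOf u), f (u ^ i) := by
  classical
  symm
  refine Finset.sum_bij (fun i _ => (⟨u ^ i, Subgroup.npow_mem_zpowers u i⟩ : Subgroup.zpowers u)) ?_ ?_ ?_ ?_
  · intro i _; exact Finset.mem_univ _
  · intro i hi j hj h
    rw [Finset.mem_range] at hi hj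
    have h1 : u ^ i = u ^ j := congrArg Subtype.val h
    exact pow_injOn_Iio_orderOf hi hj h1
  · intro x _
    obtain ⟨y, hy⟩ := x
    obtain ⟨i, hi⟩ := (mem_powers_iff_mem_zpowers.2 hy)
    refine ⟨i % orderOf u, Finset.mem_range.2 (Nat.mod_lt _ (orderOf_pos u)), ?_⟩
    apply Subtype.ext
    change u ^ (i % orderOf u) = y
    rw [pow_mod_orderOf]; exact hi
  · intro i _
    rfl

/-- the trace over a cyclic group of prime power order lies in the image of `(u-1)^(q-ℓ)` -/
theorem trace_zpowers [Finite G] {p : ℕ} [hp : Fact p.Prime] [CharP k p] {n : ℕ} {u : G} (hu : orderOf u = p ^ n)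
    [Fintype (Subgroup.zpowers u)] (ρ : G →* Module.End k V) (σ : G →* Module.End k W) (ℓ : ℕ)
    (hℓ : (ρ u - 1) ^ ℓ = 0) (h : V →ₗ[k] W) :
    ∃ h' : V →ₗ[k] W, ∑ x : Subgroup.zpowers u, (σ x).comp (h.comp (ρ (x : G)⁻¹)) =
      ((σ u - 1) ^ (p ^ n - ℓ)).comp h' := by
  classical
  have h1 := sum_zpowers (u := u) (fun x => (σ x).comp (h.comp (ρ (x : G)⁻¹)))
  rw [h1, hu]
  have h2 : (ρ u⁻¹ - 1) ^ ℓ = 0 := by
    have h3 : ρ u⁻¹ - 1 = - (ρ u⁻¹ * (ρ u - 1)) := by
      rw [mul_sub, ← map_mul, inv_mul_cancel, map_one, mul_one, neg_sub]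
    have h4 : Commute (ρ u⁻¹) (ρ u - 1) := by
      apply Commute.sub_right _ (Commute.one_right _)
      change ρ u⁻¹ * ρ u = ρ u * ρ u⁻¹
      rw [← map_mul, ← map_mul, inv_mul_cancel, mul_inv_cancel]
    rw [h3, neg_pow, h4.mul_pow, hℓ, mul_zero, mul_zero]
  obtain ⟨h', hh'⟩ := trace_range n (σ u) (ρ u⁻¹) ℓ h2 h
  refine ⟨h', ?_⟩
  rw [← hh']
  refine Finset.sum_congr rfl fun i _ => ?_
  rw [map_pow, ← inv_pow, map_pow]

/-- Schur: an endomorphism of an irreducible representation is bijective or zero. -/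
theorem schur' [FiniteDimensional k V] {ρ : G →* Module.End k V} (h : Irr ρ) (T : Module.End k V)
    (hT : ∀ g, (ρ g).comp T = T.comp (ρ g)) (h0 : T ≠ 0) : IsUnit T := by
  rw [LinearMap.isUnit_iff_ker_eq_bot]
  rcases h.irr (LinearMap.ker T) (fun g w hw => by
    rw [LinearMap.mem_ker] at hw ⊢
    have := LinearMap.congr_fun (hT g) w
    simp only [LinearMap.comp_apply, hw, map_zero] at this
    exact this.symm) with h | h
  · exact h
  · exfalso; apply h0; exact LinearMap.ker_eq_top.1 h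

/-- a nilpotent endomorphism with `a^e V ⊆ a^(e+1) V` satisfies `a^e = 0` -/
theorem pow_eq_zero_of_range {a : Module.End k V} {m e : ℕ} (hm : a ^ m = 0) (b : Module.End k V)
    (h : a ^ e = a ^ (e + 1) * b) : a ^ e = 0 := by
  have h1 : ∀ j : ℕ, ∃ b' : Module.End k V, a ^ e = a ^ (e + j) * b' := by
    intro j
    induction j with
    | zero => exact ⟨1, by rw [mul_one]; rfl⟩
    | succ j ih =>
      obtain ⟨b', hb'⟩ := ih
      refine ⟨b * b', ?_⟩
      have h2 : a ^ (e + (j + 1)) * (b * b') = a ^ j * (a ^ (e + 1) * b) * b' := by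
        rw [← mul_assoc, ← mul_assoc, ← pow_add]; congr 2; congr 1; omega
      rw [h2, ← h, ← pow_add, add_comm j e, ← hb']
  obtain ⟨b', hb'⟩ := h1 m
  rw [hb', pow_add, hm, mul_zero, zero_mul]

end RelTrace

section Main

open scoped IsMulCommutative

variable {k : Type*} [Field k] {G : Type*} [Group G] [Finite G]
variable {V : Type*} [AddCommGroup V] [Module k V] [FiniteDimensional k V]

open Subgroup in
/-- the group algebra of the cyclic group acts -/
noncomputable def act (u : G) (ρ : G →* Module.End k V) :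
    MonoidAlgebra k (zpowers u) →ₐ[k] Module.End k V :=
  MonoidAlgebra.lift k (Module.End k V) (zpowers u) (ρ.comp (zpowers u).subtype)

theorem act_of (u : G) (ρ : G →* Module.End k V) (w : Subgroup.zpowers u) :
    act u ρ (MonoidAlgebra.of k _ w) = ρ w := by
  rw [act, MonoidAlgebra.lift_of]; rfl

/-- the automorphism induced by conjugation -/
noncomputable def cj (u : G) (y : G) (hy : ∀ w ∈ Subgroup.zpowers u, y * w * y⁻¹ ∈ Subgroup.zpowers u) :
    MonoidAlgebra k (Subgroup.zpowers u) →ₐ[k] MonoidAlgebra k (Subgroup.zpowers u) :=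
  MonoidAlgebra.lift k _ _ ((MonoidAlgebra.of k (Subgroup.zpowers u)).comp
    { toFun := fun w => (⟨y * w * y⁻¹, hy w w.2⟩ : Subgroup.zpowers u)
      map_one' := by apply Subtype.ext; simp
      map_mul' := fun a b => by apply Subtype.ext; simp })

theorem cj_of (u : G) (y : G) (hy : ∀ w ∈ Subgroup.zpowers u, y * w * y⁻¹ ∈ Subgroup.zpowers u)
    (w : Subgroup.zpowers u) : cj (k := k) u y hy (MonoidAlgebra.of k _ w) = 
      MonoidAlgebra.of k _ (⟨y * w * y⁻¹, hy w w.2⟩ : Subgroup.zpowers u) := by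
  rw [cj, MonoidAlgebra.lift_of]; rfl

theorem act_cj (u : G) (ρ : G →* Module.End k V) (y : G)
    (hy : ∀ w ∈ Subgroup.zpowers u, y * w * y⁻¹ ∈ Subgroup.zpowers u) (c : MonoidAlgebra k (Subgroup.zpowers u)) :
    act u ρ (cj u y hy c) * ρ y = ρ y * act u ρ c := by
  induction c using MonoidAlgebra.induction_on with
  | of w =>
    rw [cj_of, act_of, act_of, ← map_mul, ← map_mul]
    congr 1
    simp
  | add a b ha hb => rw [map_add, map_add, map_add, add_mul, mul_add, ha, hb]
  | smul c a ha => rw [map_smul, map_smul, map_smul, smul_mul_assoc, mul_smul_comm, ha]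

theorem act_comm (u : G) (ρ : G →* Module.End k V) (Φ : Module.End k V) (hΦ : ∀ g, ρ g * Φ = Φ * ρ g)
    (c : MonoidAlgebra k (Subgroup.zpowers u)) : act u ρ c * Φ = Φ * act u ρ c := by
  induction c using MonoidAlgebra.induction_on with
  | of w => rw [act_of, hΦ]
  | add a b ha hb => rw [map_add, add_mul, mul_add, ha, hb]
  | smul c a ha => rw [map_smul, smul_mul_assoc, mul_smul_comm, ha]

/-- `w - 1 = (u - 1) * unit` in the group algebra of a cyclic `p`-group when `w = u^i`, `p ∤ i`. -/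
theorem of_sub_one {p : ℕ} [hp : Fact p.Prime] [CharP k p] {n : ℕ} {u : G} (hu : orderOf u = p ^ n) 
    {i : ℕ} (hi : ¬ p ∣ i) (u' w : Subgroup.zpowers u) (hu' : (u' : G) = u) (hw : w = u' ^ i) :
    ∃ v : MonoidAlgebra k (Subgroup.zpowers u), IsUnit v ∧
      MonoidAlgebra.of k _ w - 1 = (MonoidAlgebra.of k _ u' - 1) * v := by
  set U : MonoidAlgebra k (Subgroup.zpowers u) := MonoidAlgebra.of k _ u' with hU
  have hUq : U ^ (p ^ n) = 1 := by
    rw [hU, ← map_pow]
    have : u' ^ (p ^ n) = 1 := by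
      apply Subtype.ext
      rw [Subgroup.coe_pow, hu', ← hu, pow_orderOf_eq_one]; rfl
    rw [this, map_one]
  haveI : CharP (MonoidAlgebra k (Subgroup.zpowers u)) p := by
    apply charP_of_injective_algebraMap (R := k)
    exact (algebraMap k (MonoidAlgebra k (Subgroup.zpowers u))).injective
  have hnil : IsNilpotent (U - 1) := ⟨p ^ n, by rw [sub_pow_char_pow, hUq, one_pow, sub_self]⟩
  refine ⟨∑ j ∈ Finset.range i, U ^ j, ?_, ?_⟩
  · have h1 : ∃ z, ∑ j ∈ Finset.range i, U ^ j = algebraMap k _ (i : k) + (U - 1) * z := by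
      have h2 : ∀ j : ℕ, ∃ z, U ^ j = 1 + (U - 1) * z := by
        intro j
        refine ⟨∑ l ∈ Finset.range j, U ^ l, ?_⟩
        rw [mul_geom_sum]; ring
      choose z hz using h2
      refine ⟨∑ j ∈ Finset.range i, z j, ?_⟩
      rw [Finset.sum_congr rfl (fun j _ => hz j), Finset.sum_add_distrib, Finset.mul_sum]
      simp
    obtain ⟨z, hz⟩ := h1
    rw [hz]
    apply IsNilpotent.isUnit_add_left_of_commute
    · exact Commute.isNilpotent_mul_right (Commute.all _ _) hnil
    · apply IsUnit.map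
      rw [isUnit_iff_ne_zero]
      intro h0
      rw [CharP.cast_eq_zero_iff k p] at h0
      exact hi h0
    · exact Commute.all _ _
  · rw [mul_geom_sum, hw, map_pow]

/-- Main lemma: irreducible representations of small dimension for a cyclic T.I. subgroup. -/
theorem pow_eq_zero {p : ℕ} [hp : Fact p.Prime] [CharP k p] {n : ℕ} {u : G} (hu : orderOf u = p ^ n)
    {N : Subgroup G} (uN : u ∈ N) (hN : ∀ y ∈ N, ∀ w ∈ Subgroup.zpowers u, y * w * y⁻¹ ∈ Subgroup.zpowers u)
    (hTI : TI (Subgroup.zpowers u) N) (O : Finset (Subgroup.zpowers u))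
    (hO : ∀ y (hy : y ∈ N), ∀ w ∈ O, (⟨y * w * y⁻¹, hN y hy w w.2⟩ : Subgroup.zpowers u) ∈ O)
    (hOg : ∀ w ∈ O, ∃ i : ℕ, ¬ p ∣ i ∧ (w : G) = u ^ i)
    (ρ : G →* Module.End k V) (hρ : Irr ρ) (hd : finrank k V + O.card < p ^ n) (hO0 : 0 < O.card) :
    (ρ u - 1) ^ O.card = 0 := by
  classical
  have := Fintype.ofFinite (Subgroup.zpowers u)
  set u' : Subgroup.zpowers u := ⟨u, Subgroup.mem_zpowers u⟩ with hu'
  set F : MonoidAlgebra k (Subgroup.zpowers u) := ∏ w ∈ O, (MonoidAlgebra.of k _ w - 1) with hF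
  have hFcj : ∀ y (hy : y ∈ N), cj u y (hN y hy) F = F := by
    intro y hy
    rw [hF, map_prod]
    have hbij : ∀ w ∈ O, (⟨y * w * y⁻¹, hN y hy w w.2⟩ : Subgroup.zpowers u) ∈ O := hO y hy
    refine Finset.prod_bij (fun w _ => (⟨y * w * y⁻¹, hN y hy w w.2⟩ : Subgroup.zpowers u)) hbij ?_ ?_ ?_
    · intro a _ b _ h
      apply Subtype.ext
      have := congrArg Subtype.val h
      simpa using this
    · intro b hb
      refine ⟨⟨y⁻¹ * b * (y⁻¹)⁻¹, hN y⁻¹ (N.inv_mem hy) b b.2⟩, hO y⁻¹ (N.inv_mem hy) b hb, ?_⟩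
      apply Subtype.ext
      change y * (y⁻¹ * (b : G) * (y⁻¹)⁻¹) * y⁻¹ = b
      group
    · intro w _
      rw [map_sub, cj_of, map_one]
  have hFu : ∃ v : MonoidAlgebra k (Subgroup.zpowers u), IsUnit v ∧
      F = (MonoidAlgebra.of k _ u' - 1) ^ O.card * v := by
    have h1 : ∀ w ∈ O, ∃ v : MonoidAlgebra k (Subgroup.zpowers u), IsUnit v ∧
      MonoidAlgebra.of k _ w - 1 = (MonoidAlgebra.of k _ u' - 1) * v := by
      intro w hw
      obtain ⟨i, hi, hwi⟩ := hOg w hw
      apply of_sub_one hu hi u' w rfl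
      apply Subtype.ext
      rw [hwi]; rfl
    choose! v hv hv2 using h1
    refine ⟨∏ w ∈ O, v w, ?_, ?_⟩
    · rw [IsUnit.prod_iff]
      exact hv
    · rw [hF, Finset.prod_congr rfl hv2, Finset.prod_mul_distrib, Finset.prod_const]
  obtain ⟨v, hv, hFv⟩ := hFu
  -- the operators
  set x := ρ u - 1 with hx
  set f := act u ρ F with hf
  have hactu : act u ρ (MonoidAlgebra.of k _ u' - 1) = x := by
    rw [map_sub, act_of, map_one]
  have hfx : f = x ^ O.card * act u ρ v := by
    rw [hf, hFv, map_mul, map_pow, hactu]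
  have hUv : IsUnit (act u ρ v) := hv.map _
  have hxv : Commute x (act u ρ v) := by
    rw [← hactu]
    exact (Commute.all _ _).map (act u ρ)
  haveI : CharP (Module.End k V) p := by
    haveI := hρ.nt
    apply charP_of_injective_algebraMap (R := k)
    exact (algebraMap k (Module.End k V)).injective
  have hxq : x ^ (p ^ n) = 0 := by
    rw [hx, sub_pow_char_pow_of_commute _ _ (Commute.one_right _), one_pow, ← map_pow, ← hu, pow_orderOf_eq_one,
      map_one, sub_self]
  have hxd : x ^ finrank k V = 0 := by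
    rw [← LinearMap.ker_eq_top, eq_top_iff, ← LinearMap.ker_eq_top.2 hxq]
    exact Module.End.ker_pow_le_ker_pow_finrank x (p ^ n)
  have hfN : ∀ y ∈ N, (ρ y).comp f = LinearMap.comp f (ρ y) := by
    intro y hy
    have h1 := act_cj u ρ y (hN y hy) F
    rw [hFcj y hy] at h1
    exact h1.symm
  obtain ⟨Φ, h, hΦ, hΦ2⟩ := relTrace (P := Subgroup.zpowers u) (N := N) (Subgroup.zpowers_le.2 uN) hTI ρ ρ f hfN
  obtain ⟨h', hh'⟩ := trace_zpowers hu ρ ρ (finrank k V) hxd h
  rw [hh'] at hΦ2
  by_cases hΦ0 : Φ = 0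
  · -- `f = - x^(q-d) h'`
    obtain ⟨j, hj⟩ : ∃ j, p ^ n - finrank k V = O.card + 1 + j := ⟨p ^ n - finrank k V - (O.card + 1), by omega⟩
    obtain ⟨w, hw⟩ := hUv.exists_right_inv
    apply pow_eq_zero_of_range hxq (b := - (x ^ j * h' * w))
    have h2 : f = - (x ^ (p ^ n - finrank k V) * h') := by
      rw [hΦ0] at hΦ2
      exact eq_neg_of_add_eq_zero_left hΦ2.symm
    have h3 : x ^ O.card = f * w := by
      rw [hfx, mul_assoc, hw, mul_one]
    rw [h3, h2, hj, pow_add]
    simp only [mul_neg, neg_mul, mul_assoc]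
  · exfalso
    have hU := schur' hρ Φ hΦ hΦ0
    have hfnil : IsNilpotent f := by
      refine ⟨p ^ n, ?_⟩
      rw [hfx, Commute.mul_pow (hxv.pow_left _), ← pow_mul, mul_comm O.card, pow_mul, hxq, zero_pow hO0.ne', zero_mul]
    have hcomm : Commute Φ f := by
      have := act_comm u ρ Φ (fun g => hΦ g) F
      exact this.symm
    have hunit : IsUnit (Φ - f) := by
      have h1 : Φ - f = Φ + (-f) := sub_eq_add_neg _ _
      rw [h1]
      exact IsNilpotent.isUnit_add_left_of_commute hfnil.neg hU (hcomm.neg_right).symm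
    have h4 : Φ - f = x ^ (p ^ n - finrank k V) * h' := by
      rw [hΦ2]; exact add_sub_cancel_left _ _
    rw [h4] at hunit
    obtain ⟨w, hw⟩ := hunit.exists_right_inv
    obtain ⟨j, hj⟩ : ∃ j, p ^ n - finrank k V = j + 1 := ⟨p ^ n - finrank k V - 1, by omega⟩
    have h5 : x ^ 0 = 0 := by
      apply pow_eq_zero_of_range hxq (b := x ^ j * h' * w)
      rw [pow_zero, zero_add, pow_one, ← hw, hj, pow_succ']
      simp only [mul_assoc]
    rw [pow_zero] at h5
    haveI := hρ.nt
    exact one_ne_zero h5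

end Main

section Result

theorem irr_of_isIrreducible {k : Type*} [Field k] {G : Type*} [Group G] {V : Type*} [AddCommGroup V] [Module k V]
    {ρ : Representation k G V} (h : ρ.IsIrreducible) : Irr (V := V) ρ := by
  have hnt : Nontrivial (Subrepresentation ρ) := h.toNontrivial
  constructor
  · by_contra hV
    rw [not_nontrivial_iff_subsingleton] at hV
    obtain ⟨a, b, hab⟩ := hnt.exists_pair_ne
    apply hab
    apply Subrepresentation.toSubmodule_injective
    exact Subsingleton.elim _ _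
  · intro W hW
    let w : Subrepresentation ρ := ⟨W, fun g v hv => hW g v hv⟩
    rcases h.eq_bot_or_eq_top w with h1 | h1
    · left; exact congrArg Subrepresentation.toSubmodule h1
    · right; exact congrArg Subrepresentation.toSubmodule h1

/-- Degrees of faithful irreducible representations of groups with cyclic T.I. Sylow subgroup -/
theorem result {G : Type*} [Group G] [Finite G] (p : ℕ) [hp : Fact p.Prime] (P : Sylow p G) (hcyc : IsCyclic P)
    (n : ℕ) (hn : 2 ≤ n) (hPn : Nat.card P = p ^ n)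
    (hTI : ∀ Q : Sylow p G, Q ≠ P → (P : Subgroup G) ⊓ (Q : Subgroup G) = ⊥) (F : Type*) [Field F] [CharP F p]
    (V : Type*) [AddCommGroup V] [Module F V] [FiniteDimensional F V] (ρ : Representation F G V)
    (hfaith : Function.Injective ρ) (hirr : ρ.IsIrreducible) : p ^ n - (p - 1) ≤ Module.finrank F V := by
  classical
  by_contra hcon
  rw [not_le] at hcon
  obtain ⟨⟨u, huP⟩, hu⟩ := hcyc.exists_generator
  have hPu : (P : Subgroup G) = Subgroup.zpowers u := by
    apply le_antisymm
    · intro x hx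
      obtain ⟨i, hi⟩ := Subgroup.mem_zpowers_iff.1 (hu ⟨x, hx⟩)
      rw [Subgroup.mem_zpowers_iff]
      exact ⟨i, congrArg Subtype.val hi⟩
    · rw [Subgroup.zpowers_le]; exact huP
  have huo : orderOf u = p ^ n := by
    rw [← hPn, ← Nat.card_zpowers, ← hPu]
  set N : Subgroup G := Subgroup.normalizer ((P : Subgroup G) : Set G) with hN
  have hNmem : ∀ y ∈ N, ∀ w ∈ Subgroup.zpowers u, y * w * y⁻¹ ∈ Subgroup.zpowers u := by
    intro y hy w hw
    rw [← hPu] at hw ⊢
    exact (Subgroup.mem_normalizer_iff.1 hy w).1 hw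
  have uN : u ∈ N := Subgroup.le_normalizer huP
  have hTI' : TI (Subgroup.zpowers u) N := by
    intro g hg x hx hx1 hxN
    rw [← hPu] at hx
    -- `g⁻¹ x g` is a `p`-element of `N`, hence in `P`
    have h1 : g⁻¹ * x * g ∈ (P : Subgroup G) := by
      -- the subgroup generated together with `P`
      have h2 : IsPGroup p (Subgroup.zpowers (g⁻¹ * x * g)) := by
        have h3 : Subgroup.zpowers (g⁻¹ * x * g) ≤ ((g⁻¹ • P : Sylow p G) : Subgroup G) := by
          rw [Subgroup.zpowers_le]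
          rw [Sylow.coe_subgroup_smul]
          refine Subgroup.mem_pointwise_smul_iff_inv_smul_mem.2 ?_
          rw [← map_inv, inv_inv]
          change g * (g⁻¹ * x * g) * g⁻¹ ∈ _
          have : g * (g⁻¹ * x * g) * g⁻¹ = x := by group
          rw [this]; exact hx
        exact (g⁻¹ • P).isPGroup'.to_le h3
      have h4 : IsPGroup p (Subgroup.zpowers (g⁻¹ * x * g) ⊔ (P : Subgroup G) : Subgroup G) := by
        apply h2.to_sup_of_normal_right' P.isPGroup'
        rw [Subgroup.zpowers_le]; exact hxN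
      have h5 := P.is_maximal' h4 le_sup_right
      have h6 : Subgroup.zpowers (g⁻¹ * x * g) ≤ (P : Subgroup G) := by
        conv_rhs => rw [← h5]
        exact le_sup_left
      exact h6 (Subgroup.mem_zpowers _)
    have h7 : (g • P : Sylow p G) ≠ P := by
      intro h
      apply hg
      exact Sylow.smul_eq_iff_mem_normalizer.1 h
    have h8 := hTI _ h7
    have h9 : x ∈ (P : Subgroup G) ⊓ ((g • P : Sylow p G) : Subgroup G) := by
      refine ⟨hx, ?_⟩
      rw [Sylow.coe_subgroup_smul]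
      refine Subgroup.mem_pointwise_smul_iff_inv_smul_mem.2 ?_
      rw [← map_inv]
      change g⁻¹ * x * (g⁻¹)⁻¹ ∈ _
      rw [inv_inv]; exact h1
    rw [h8, Subgroup.mem_bot] at h9
    exact hx1 h9
  -- the homomorphism `N → Aut P`
  let κ : N →* MulAut (Subgroup.zpowers u) := 
    { toFun := fun y => 
        { toFun := fun w => ⟨y * w * (y : G)⁻¹, hNmem y y.2 w w.2⟩
          invFun := fun w => ⟨(y : G)⁻¹ * w * y, by
            have := hNmem (y : G)⁻¹ (N.inv_mem y.2) w w.2
            rwa [inv_inv] at this⟩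
          left_inv := fun w => by apply Subtype.ext; simp [mul_assoc]
          right_inv := fun w => by apply Subtype.ext; simp [mul_assoc]
          map_mul' := fun a b => by apply Subtype.ext; simp [mul_assoc] }
      map_one' := by ext w; simp
      map_mul' := fun a b => by ext w; simp [mul_assoc] }
  have hκ : ∀ (y : N) (w : Subgroup.zpowers u), ((κ y w : Subgroup.zpowers u) : G) = y * w * (y : G)⁻¹ := fun y w => rfl
  haveI : Finite (MulAut (Subgroup.zpowers u)) := by
    haveI : Finite (Equiv.Perm (Subgroup.zpowers u)) := inferInstance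
    exact Finite.of_injective (fun f : MulAut (Subgroup.zpowers u) => (f.toEquiv : Equiv.Perm (Subgroup.zpowers u)))
      (fun a b h => MulEquiv.toEquiv_injective h)
  have := Fintype.ofFinite (Subgroup.zpowers u)
  have := Fintype.ofFinite κ.range
  set u' : Subgroup.zpowers u := ⟨u, Subgroup.mem_zpowers u⟩ with hu'
  set O : Finset (Subgroup.zpowers u) := Finset.univ.image (fun α : κ.range => (α : MulAut (Subgroup.zpowers u)) u') with hO
  have hOcard : O.card = Nat.card κ.range := by
    rw [hO, Finset.card_image_of_injective, Finset.card_univ, Nat.card_eq_fintype_card]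
    intro α β h
    apply Subtype.ext
    apply MulEquiv.ext
    intro w
    obtain ⟨i, hi⟩ := Subgroup.mem_zpowers_iff.1 w.2
    have hw : w = u' ^ i := Subtype.ext hi.symm
    rw [hw, map_zpow, map_zpow]
    have h' : (α : MulAut (Subgroup.zpowers u)) u' = (β : MulAut (Subgroup.zpowers u)) u' := h
    rw [h']
  have hOmem : ∀ y (hy : y ∈ N), ∀ w ∈ O, (⟨y * w * y⁻¹, hNmem y hy w w.2⟩ : Subgroup.zpowers u) ∈ O := by
    intro y hy w hw
    rw [hO, Finset.mem_image] at hw ⊢
    obtain ⟨⟨α, hα⟩, _, rfl⟩ := hw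
    refine ⟨⟨κ ⟨y, hy⟩ * α, κ.range.mul_mem ⟨_, rfl⟩ hα⟩, Finset.mem_univ _, ?_⟩
    rfl
  have hOg : ∀ w ∈ O, ∃ i : ℕ, ¬ p ∣ i ∧ (w : G) = u ^ i := by
    intro w hw
    rw [hO, Finset.mem_image] at hw
    obtain ⟨⟨α, y, rfl⟩, _, rfl⟩ := hw
    change ∃ i : ℕ, ¬ p ∣ i ∧ ((κ y u' : Subgroup.zpowers u) : G) = u ^ i
    obtain ⟨i, hi⟩ := mem_powers_iff_mem_zpowers.2 (κ y u').2
    refine ⟨i, ?_, hi.symm⟩
    intro hpi
    have h1 : orderOf ((κ y u' : Subgroup.zpowers u) : G) = p ^ n := by
      rw [hκ, ← huo]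
      have h0 := (MulAut.conj (y : G)).orderOf_eq u
      rwa [MulAut.conj_apply] at h0
    have h2 : ((κ y u' : Subgroup.zpowers u) : G) = u ^ i := hi.symm
    rw [h2, orderOf_pow, huo] at h1
    obtain ⟨j, rfl⟩ := hpi
    have h3 : p ∣ Nat.gcd (p ^ n) (p * j) := by
      apply Nat.dvd_gcd
      · exact dvd_pow_self p (by omega)
      · exact dvd_mul_right _ _
    have h4 : Nat.gcd (p ^ n) (p * j) ∣ p ^ n := Nat.gcd_dvd_left _ _
    have h5 := Nat.div_mul_cancel h4
    rw [h1] at h5
    have h6 : 0 < p ^ n := pow_pos hp.out.pos n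
    have h7 : Nat.gcd (p ^ n) (p * j) = 1 := by
      have : p ^ n * Nat.gcd (p ^ n) (p * j) = p ^ n * 1 := by rw [h5, mul_one]
      exact Nat.eq_of_mul_eq_mul_left h6 this
    rw [h7] at h3
    exact hp.out.one_lt.ne' (Nat.dvd_one.1 h3)
  -- the size of `O`
  have hcardAut : Nat.card (MulAut (Subgroup.zpowers u)) = p ^ (n - 1) * (p - 1) := by
    haveI : IsCyclic (Subgroup.zpowers u) := inferInstance
    haveI : NeZero (Nat.card (Subgroup.zpowers u)) := ⟨Nat.card_pos.ne'⟩
    rw [Nat.card_congr (IsCyclic.mulAutMulEquiv (Subgroup.zpowers u)).toEquiv, Nat.card_eq_fintype_card,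
      ZMod.card_units_eq_totient, Nat.card_zpowers, huo, Nat.totient_prime_pow hp.out (by omega)]
  have hcop : Nat.Coprime (Nat.card κ.range) p := by
    rw [Nat.coprime_comm, hp.out.coprime_iff_not_dvd]
    intro hdvd
    -- `P ≤ ker κ`
    have h1 : ((P : Subgroup G).subgroupOf N) ≤ κ.ker := by
      intro y hy
      rw [Subgroup.mem_subgroupOf] at hy
      rw [MonoidHom.mem_ker]
      apply MulEquiv.ext
      intro w
      apply Subtype.ext
      rw [hκ]
      change _ = (w : G)
      rw [hPu] at hy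
      obtain ⟨i, hi⟩ := Subgroup.mem_zpowers_iff.1 hy
      obtain ⟨j, hj⟩ := Subgroup.mem_zpowers_iff.1 w.2
      rw [← hi, ← hj]
      rw [← zpow_add, ← zpow_neg, ← zpow_add]; congr 1; ring
    have h2 : Nat.card κ.range = κ.ker.index := (Subgroup.index_ker κ).symm
    have h3 : κ.ker.index ∣ ((P : Subgroup G).subgroupOf N).index := Subgroup.index_dvd_of_le h1
    have h4 : ¬ p ∣ ((P : Subgroup G).subgroupOf N).index := by
      have h5 : ((P : Subgroup G).subgroupOf N).index = (P : Subgroup G).relIndex N := rfl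
      rw [h5]
      have h6 : (P : Subgroup G).relIndex N ∣ (P : Subgroup G).index := 
        Subgroup.relIndex_dvd_index_of_le Subgroup.le_normalizer
      exact fun h => P.not_dvd_index' Subgroup.index_ne_zero_of_finite (h.trans h6)
    exact h4 ((h2 ▸ hdvd).trans h3)
  have hOdvd : O.card ∣ p - 1 := by
    have h1 : O.card ∣ p ^ (n - 1) * (p - 1) := by
      rw [hOcard, ← hcardAut]; exact Subgroup.card_subgroup_dvd_card _
    rw [hOcard] at h1 ⊢
    exact (hcop.pow_right (n - 1)).dvd_of_dvd_mul_left h1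
  have hp1 : 0 < p - 1 := Nat.sub_pos_of_lt hp.out.one_lt
  have hOle : O.card ≤ p - 1 := Nat.le_of_dvd hp1 hOdvd
  have hO0 : 0 < O.card := Nat.pos_of_dvd_of_pos hOdvd hp1
  have hirr' := irr_of_isIrreducible hirr
  have hmain := pow_eq_zero huo uN hNmem hTI' O hOmem hOg ρ hirr' (by omega) hO0
  -- so `u^p = 1`
  have h1 : (ρ u - 1) ^ p = 0 := by
    obtain ⟨j, hj⟩ := Nat.exists_eq_add_of_le (show O.card ≤ p by omega)
    rw [hj, pow_add, hmain, zero_mul]
  haveI : CharP (Module.End F V) p := by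
    haveI := hirr'.nt
    apply charP_of_injective_algebraMap (R := F)
    exact (algebraMap F (Module.End F V)).injective
  rw [sub_pow_char_of_commute _ (Commute.one_right _), one_pow, sub_eq_zero, ← map_pow] at h1
  have h2 : u ^ p = 1 := hfaith (h1.trans (map_one ρ).symm)
  have h3 : orderOf u ∣ p := orderOf_dvd_of_pow_eq_one h2
  rw [huo] at h3
  have h4 := Nat.le_of_dvd hp.out.pos h3
  have h5 : p ^ 2 ≤ p ^ n := Nat.pow_le_pow_right hp.out.pos hn
  have h6 : p * 2 ≤ p ^ 2 := by rw [pow_two]; exact Nat.mul_le_mul_left p hp.out.two_le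
  have h7 := hp.out.pos
  omega

end Result

end Cfsg.Agent.Lib.CycTI
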