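import Cfsg.Agent.Lib.TransferApps
import Cfsg.Agent.Lib.PNilp

set_option autoImplicit false

/-!
A Hall subgroup `D` with cyclic Sylow subgroups which controls its own fusion has a normal complement.
-/

namespace Cfsg.Agent.Lib.CyclicHallSplit

open Subgroup Cfsg

variable {G : Type*} [Group G] [Finite G]

/-- one step: a normal subgroup `L` with a cyclic Sylow `p`-subgroup `P` (Sylow in `G`) such that the elements of
`L` normalising `P` act on `P` like elements of `D`. -/
theorem step {p : ℕ} [Fact p.Prime] (D L P : Subgroup G) [hL : L.Normal]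
    (hPD : P ≤ D) (hP : IsPGroup p P) (hcyc : IsCyclic P) (hidx : ¬ p ∣ P.index)
    (hfus : ∀ x ∈ D, ∀ g : G, g * x * g⁻¹ ∈ D → ∃ d ∈ D, d * x * d⁻¹ = g * x * g⁻¹)
    (hLp : ¬ p ∣ L.index) (hsmall : ∀ q : ℕ, q.Prime → q ∣ Nat.card D → q ∣ Nat.card L → p ≤ q) :
    ∃ M : Subgroup G, M.Normal ∧ M ≤ L ∧ ¬ p ∣ Nat.card M ∧ ∃ k, M.relIndex L = p ^ k := by
  have hp : p.Prime := Fact.out
  -- P ≤ L
  have hPL : P ≤ L := by
    intro x hx
    have h1 : orderOf ((QuotientGroup.mk x : G ⧸ L)) ∣ L.index := by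
      have := orderOf_dvd_natCard (QuotientGroup.mk x : G ⧸ L)
      exact this
    obtain ⟨k, hk⟩ := hP ⟨x, hx⟩
    have hk' : x ^ p ^ k = 1 := by simpa using congrArg Subtype.val hk
    have h2 : orderOf ((QuotientGroup.mk x : G ⧸ L)) ∣ p ^ k := by
      apply orderOf_dvd_of_pow_eq_one
      rw [← QuotientGroup.mk_pow, hk', QuotientGroup.mk_one]
    have h3 : orderOf ((QuotientGroup.mk x : G ⧸ L)) = 1 := by
      obtain ⟨j, hj, hj'⟩ := (Nat.dvd_prime_pow hp).1 h2
      rcases Nat.eq_zero_or_pos j with rfl | hpos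
      · rw [hj', pow_zero]
      · exact absurd ((dvd_pow_self p hpos.ne').trans (hj' ▸ h1)) hLp
    rw [orderOf_eq_one_iff, QuotientGroup.eq_one_iff] at h3
    exact h3
  -- elements of L normalising P centralise P
  have hkey : ∀ g ∈ L, g ∈ normalizer (P : Set G) → g ∈ centralizer (P : Set G) := by
    intro g hgL hgN
    let φ : normalizer (P : Set G) →* MulAut P := P.normalizerMonoidHom
    have hφ : ∀ (n : normalizer (P : Set G)) (y : P), ((φ n y : P) : G) = (n : G) * y * (n : G)⁻¹ := fun n y => rfl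
    have hker : φ.ker = (centralizer (P : Set G)).subgroupOf (normalizer (P : Set G)) :=
      Subgroup.normalizerMonoidHom_ker P
    suffices h : φ ⟨g, hgN⟩ = 1 by
      have h1 : (⟨g, hgN⟩ : normalizer (P : Set G)) ∈ φ.ker := h
      rw [hker, Subgroup.mem_subgroupOf] at h1
      exact h1
    obtain ⟨⟨x, hxP⟩, hgen⟩ := hcyc
    have hgx : g * x * g⁻¹ ∈ P := (Subgroup.mem_normalizer_iff.1 hgN x).1 hxP
    obtain ⟨d, hd, hdx⟩ := hfus x (hPD hxP) g (hPD hgx)
    -- d normalises P
    have hPz : ∀ y ∈ P, ∃ k : ℤ, y = x ^ k := by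
      intro y hy
      obtain ⟨k, hk⟩ := Subgroup.mem_zpowers_iff.1 (hgen ⟨y, hy⟩)
      exact ⟨k, by simpa using (congrArg Subtype.val hk).symm⟩
    have hdN : d ∈ normalizer (P : Set G) := by
      apply GroupUtil.mem_normalizer_of_conj_le
      intro y hy
      obtain ⟨k, rfl⟩ := hPz y hy
      have : d * x ^ k * d⁻¹ = (g * x * g⁻¹) ^ k := by rw [← hdx, conj_zpow]
      rw [this]
      exact zpow_mem hgx k
    have hφd : φ ⟨g, hgN⟩ = φ ⟨d, hdN⟩ := by
      ext ⟨y, hy⟩
      rw [hφ, hφ]
      obtain ⟨k, rfl⟩ := hPz y hy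
      show g * x ^ k * g⁻¹ = d * x ^ k * d⁻¹
      rw [← conj_zpow, ← conj_zpow, hdx]
    by_contra hne
    have h1 : orderOf (φ ⟨g, hgN⟩) ≠ 1 := by rwa [Ne, orderOf_eq_one_iff]
    obtain ⟨q, hq, hqo⟩ := Nat.exists_prime_and_dvd h1
    have hqL : q ∣ Nat.card L := by
      have h2 : orderOf (φ ⟨g, hgN⟩) ∣ orderOf (⟨g, hgN⟩ : normalizer (P : Set G)) := orderOf_map_dvd φ _
      have h3 : orderOf (⟨g, hgN⟩ : normalizer (P : Set G)) = orderOf g := Subgroup.orderOf_mk _ _
      have h4 : orderOf g = orderOf (⟨g, hgL⟩ : L) := (Subgroup.orderOf_mk _ _).symm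
      have h5 := orderOf_dvd_natCard (⟨g, hgL⟩ : L)
      exact hqo.trans (h2.trans (by rw [h3, h4]; exact h5))
    have hqD : q ∣ Nat.card D := by
      rw [hφd] at hqo
      have h2 : orderOf (φ ⟨d, hdN⟩) ∣ orderOf (⟨d, hdN⟩ : normalizer (P : Set G)) := orderOf_map_dvd φ _
      have h3 : orderOf (⟨d, hdN⟩ : normalizer (P : Set G)) = orderOf d := Subgroup.orderOf_mk _ _
      have h4 : orderOf d = orderOf (⟨d, hd⟩ : D) := (Subgroup.orderOf_mk _ _).symm
      have h5 := orderOf_dvd_natCard (⟨d, hd⟩ : D)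
      exact hqo.trans (h2.trans (by rw [h3, h4]; exact h5))
    have hpq := hsmall q hq hqD hqL
    -- q divides |Aut P|
    have hcyc' : IsCyclic P := ⟨⟨x, hxP⟩, hgen⟩
    have h2 : q ∣ Nat.card (MulAut P) := hqo.trans (orderOf_dvd_natCard _)
    rw [IsCyclic.card_mulAut] at h2
    obtain ⟨a, ha⟩ := hP.exists_card_eq
    rw [ha] at h2
    have hqp : q = p := by
      rcases Nat.eq_zero_or_pos a with rfl | hpos
      · rw [pow_zero, Nat.totient_one] at h2
        exact absurd h2 hq.not_dvd_one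
      · rw [Nat.totient_prime_pow hp hpos] at h2
        rcases hq.dvd_mul.1 h2 with h3 | h3
        · exact (Nat.prime_dvd_prime_iff_eq hq hp).1 (hq.dvd_of_dvd_pow h3)
        · have h4 : q ≤ p - 1 := Nat.le_of_dvd (Nat.sub_pos_of_lt hp.one_lt) h3
          have := hp.one_lt
          omega
    subst hqp
    -- but |N(P) : C(P)| is prime to p
    have h3 : q ∣ Nat.card φ.range := by
      have : orderOf (φ ⟨g, hgN⟩) = orderOf (⟨φ ⟨g, hgN⟩, ⟨_, rfl⟩⟩ : φ.range) := (Subgroup.orderOf_mk _ _).symm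
      rw [this] at hqo
      exact hqo.trans (orderOf_dvd_natCard _)
    have h4 : Nat.card φ.range ∣ P.index := by
      rw [← Subgroup.index_ker, hker]
      have h5 : P ≤ centralizer (P : Set G) := by
        have hcomm : IsMulCommutative P := by
          have := hcyc'
          infer_instance
        exact Subgroup.le_centralizer P
      have h6 : (centralizer (P : Set G)).relIndex (normalizer (P : Set G)) ∣ P.relIndex (normalizer (P : Set G)) :=
        Subgroup.relIndex_dvd_of_le_left _ h5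
      exact h6.trans (Subgroup.relIndex_dvd_index_of_le Subgroup.le_normalizer)
    exact hidx (h3.trans h4)
  -- Burnside in L
  have hPs : IsPGroup p (P.subgroupOf L) := hP.comap_subtype
  have hPi : ¬ p ∣ (P.subgroupOf L).index := fun h => hidx (h.trans (Subgroup.relIndex_dvd_index_of_le hPL))
  let S : Sylow p L := hPs.toSylow hPi
  have hS : (S : Subgroup L) = P.subgroupOf L := rfl
  have hb : HasNormalPComplement p L := by
    apply TransferApps.hasNormalPComplement_of_normalizer_le_centralizer S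
    intro g hg
    have h1 : (g : G) ∈ normalizer (P : Set G) := by
      apply GroupUtil.mem_normalizer_of_conj_le
      intro y hy
      have h2 := (Subgroup.mem_normalizer_iff.1 hg ⟨y, hPL hy⟩).1 (by
        show (⟨y, hPL hy⟩ : L) ∈ P.subgroupOf L
        rw [Subgroup.mem_subgroupOf]; exact hy)
      have h3 : g * ⟨y, hPL hy⟩ * g⁻¹ ∈ P.subgroupOf L := h2
      rw [Subgroup.mem_subgroupOf] at h3
      exact h3
    have h2 := hkey g g.2 h1
    rw [Subgroup.mem_centralizer_iff] at h2 ⊢
    intro y hy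
    apply Subtype.ext
    have hy' : y ∈ P.subgroupOf L := hy
    rw [Subgroup.mem_subgroupOf] at hy'
    exact h2 y hy'
  -- the normal complement
  have hchar := PNilp.pResidual_characteristic (G := L) p
  refine ⟨(pResidual p L).map L.subtype, ConjAct.normal_of_characteristic_of_normal, Subgroup.map_subtype_le _, ?_, ?_⟩
  · rw [Subgroup.card_map_of_injective L.subtype_injective]
    exact PNilp.hasNormalPComplement_iff_pResidual.1 hb
  · obtain ⟨k, hk⟩ := PNilp.pResidual_index (G := L) p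
    refine ⟨k, ?_⟩
    rw [← hk]
    show ((Subgroup.map L.subtype (pResidual p L)).comap L.subtype).index = _
    rw [Subgroup.comap_map_eq_self_of_injective L.subtype_injective]

/-- **Main lemma.** -/
theorem exists_normal_complement (D : Subgroup G)
    (hsyl : ∀ p : ℕ, p.Prime → p ∣ Nat.card D → ∃ P : Subgroup G, P ≤ D ∧ IsPGroup p P ∧ IsCyclic P ∧ ¬ p ∣ P.index)
    (hfus : ∀ x ∈ D, ∀ g : G, g * x * g⁻¹ ∈ D → ∃ d ∈ D, d * x * d⁻¹ = g * x * g⁻¹) :
    (Nat.card D).Coprime D.index ∧ ∃ N : Subgroup G, N.Normal ∧ N.IsComplement' D := by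
  have hHall : (Nat.card D).Coprime D.index := by
    apply Nat.coprime_of_dvd
    intro p hp h1 h2
    obtain ⟨P, hPD, -, -, hP⟩ := hsyl p hp h1
    exact hP (h2.trans (Subgroup.index_dvd_of_le hPD))
  refine ⟨hHall, ?_⟩
  have key : ∀ n : ℕ, ∃ L : Subgroup G, L.Normal ∧
      (∀ q : ℕ, q.Prime → q < n → q ∣ Nat.card D → ¬ q ∣ Nat.card L) ∧
      (∀ q : ℕ, q.Prime → q ∣ L.index → q < n ∧ q ∣ Nat.card D) := by
    intro n
    induction n with
    | zero =>
      refine ⟨⊤, inferInstance, fun q _ h => absurd h (Nat.not_lt_zero _), fun q hq h => ?_⟩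
      rw [Subgroup.index_top] at h
      exact absurd h hq.not_dvd_one
    | succ n ih =>
      obtain ⟨L, hL, h1, h2⟩ := ih
      by_cases hn : n.Prime ∧ n ∣ Nat.card D
      · obtain ⟨hnp, hnD⟩ := hn
        have := Fact.mk hnp
        obtain ⟨P, hPD, hP, hcyc, hidx⟩ := hsyl n hnp hnD
        obtain ⟨M, hM, hML, hMn, k, hk⟩ := step D L P hPD hP hcyc hidx hfus
          (fun h => absurd (h2 n hnp h).1 (lt_irrefl _))
          (fun q hq hqD hqL => by
            by_contra hlt
            exact h1 q hq (not_le.1 hlt) hqD hqL)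
        refine ⟨M, hM, ?_, ?_⟩
        · intro q hq hqn hqD
          rcases Nat.lt_succ_iff_lt_or_eq.1 hqn with h | h
          · intro hqM
            exact h1 q hq h hqD (hqM.trans (Subgroup.card_dvd_of_le hML))
          · rw [h]; exact hMn
        · intro q hq hqM
          rw [← Subgroup.relIndex_mul_index hML, hk] at hqM
          rcases hq.dvd_mul.1 hqM with h | h
          · have : q = n := (Nat.prime_dvd_prime_iff_eq hq hnp).1 (hq.dvd_of_dvd_pow h)
            rw [this]
            exact ⟨Nat.lt_succ_self n, hnD⟩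
          · obtain ⟨h3, h4⟩ := h2 q hq h
            exact ⟨Nat.lt_succ_of_lt h3, h4⟩
      · refine ⟨L, hL, ?_, ?_⟩
        · intro q hq hqn hqD
          rcases Nat.lt_succ_iff_lt_or_eq.1 hqn with h | h
          · exact h1 q hq h hqD
          · subst h
            exact absurd ⟨hq, hqD⟩ hn
        · intro q hq hqL
          obtain ⟨h3, h4⟩ := h2 q hq hqL
          exact ⟨Nat.lt_succ_of_lt h3, h4⟩
  obtain ⟨N, hN, h1, h2⟩ := key (Nat.card D + 1)
  refine ⟨N, hN, ?_⟩
  have hND : (Nat.card N).Coprime (Nat.card D) := by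
    apply Nat.coprime_of_dvd
    intro q hq hqN hqD
    exact h1 q hq (Nat.lt_succ_of_le (Nat.le_of_dvd Nat.card_pos hqD)) hqD hqN
  have h3 : N.index.Coprime D.index := by
    apply Nat.coprime_of_dvd
    intro q hq hqN hqD
    have h4 := (h2 q hq hqN).2
    exact hq.one_lt.ne' (Nat.dvd_one.1 (hHall ▸ Nat.dvd_gcd h4 hqD))
  have h4 : Nat.card N * N.index = Nat.card D * D.index := by
    rw [Subgroup.card_mul_index, Subgroup.card_mul_index]
  have h5 : N.index ∣ Nat.card D := by
    apply h3.dvd_of_dvd_mul_right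
    rw [← h4]; exact dvd_mul_left _ _
  have h6 : Nat.card D ∣ N.index := by
    apply hND.symm.dvd_of_dvd_mul_left
    rw [h4]; exact dvd_mul_right _ _
  have h7 : N.index = Nat.card D := Nat.dvd_antisymm h5 h6
  apply Subgroup.isComplement'_of_coprime _ hND
  rw [← h7, Subgroup.card_mul_index]

end Cfsg.Agent.Lib.CyclicHallSplit
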