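import Mathlib
import Cfsg.Prelude.Def_HallClasses
import Cfsg.Agent.Lib.CentMaximal
import Cfsg.Agent.Lib.BrauerApp
import Cfsg.Agent.Lib.GroupUtil

/-!
# `π`-homogeneous groups with the full Sylow property for `π` have normal `π`-complements (helper2)
-/

set_option autoImplicit false

namespace Cfsg.Agent.Lib.DPi

open Subgroup Cfsg

universe u

section

variable {G : Type u} [Group G]

/-- the conjugate `g A g⁻¹` -/
def cj (g : G) (A : Subgroup G) : Subgroup G := A.map (MulAut.conj g).toMonoidHom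

theorem mem_cj {g x : G} {A : Subgroup G} : x ∈ cj g A ↔ g⁻¹ * x * g ∈ A := by
  rw [cj, mem_map_equiv, MulAut.conj_symm_apply]

theorem conj_mem_cj {g x : G} {A : Subgroup G} (hx : x ∈ A) : g * x * g⁻¹ ∈ cj g A := by
  rw [mem_cj]
  have : g⁻¹ * (g * x * g⁻¹) * g = x := by group
  rwa [this]

theorem cj_cj (g h : G) (A : Subgroup G) : cj g (cj h A) = cj (g * h) A := by
  ext x
  rw [mem_cj, mem_cj, mem_cj]
  have : h⁻¹ * (g⁻¹ * x * g) * h = (g * h)⁻¹ * x * (g * h) := by group
  rw [this]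

theorem cj_one (A : Subgroup G) : cj 1 A = A := by
  ext x; rw [mem_cj]; simp

theorem card_cj (g : G) (A : Subgroup G) : Nat.card (cj g A) = Nat.card A :=
  Subgroup.card_map_of_injective (MulAut.conj g).injective

theorem cj_mono (g : G) {A B : Subgroup G} (h : A ≤ B) : cj g A ≤ cj g B := map_mono h

theorem cj_le_iff {g : G} {A B : Subgroup G} : cj g A ≤ B ↔ ∀ a ∈ A, g * a * g⁻¹ ∈ B := by
  constructor
  · intro h a ha
    exact h (conj_mem_cj ha)
  · intro h x hx
    rw [mem_cj] at hx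
    have := h _ hx
    have e : g * (g⁻¹ * x * g) * g⁻¹ = x := by group
    rwa [e] at this

theorem mem_nz_iff {g : G} {A : Subgroup G} : g ∈ normalizer (A : Set G) ↔ cj g A = A := by
  rw [mem_normalizer_iff]
  constructor
  · intro h
    ext x
    rw [mem_cj]
    have := h (g⁻¹ * x * g)
    have e : g * (g⁻¹ * x * g) * g⁻¹ = x := by group
    rwa [e] at this
  · intro h x
    constructor
    · intro hx; rw [← h]; exact conj_mem_cj hx
    · intro hx
      rw [← h, mem_cj] at hx
      have e : g⁻¹ * (g * x * g⁻¹) * g = x := by group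
      rwa [e] at hx

theorem cj_nz (g : G) (A : Subgroup G) : cj g (normalizer (A : Set G)) = normalizer (cj g A : Set G) := by
  ext x
  rw [mem_cj, mem_nz_iff, mem_nz_iff]
  have h1 : cj (g⁻¹ * x * g) A = cj g⁻¹ (cj x (cj g A)) := by rw [cj_cj, cj_cj]
  rw [h1]
  constructor
  · intro h
    have := congrArg (cj g) h
    rwa [cj_cj, mul_inv_cancel, cj_one] at this
  · intro h
    rw [h, cj_cj, inv_mul_cancel, cj_one]

theorem isPGroup_cj {p : ℕ} {A : Subgroup G} (h : IsPGroup p A) (g : G) : IsPGroup p (cj g A) := h.map _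

theorem isPiSubgroup_of_isPGroup {π : Set ℕ} {p : ℕ} [Fact p.Prime] (hp : p ∈ π) {A : Subgroup G} [Finite A]
    (h : IsPGroup p A) : IsPiSubgroup π A := by
  obtain ⟨k, hk⟩ := IsPGroup.iff_card.mp h
  intro q hq hqd
  rw [hk] at hqd
  have := (Nat.prime_dvd_prime_iff_eq hq Fact.out).mp (hq.dvd_of_dvd_pow hqd)
  rwa [this]

theorem isPiSubgroup_cj {π : Set ℕ} {A : Subgroup G} (h : IsPiSubgroup π A) (g : G) : IsPiSubgroup π (cj g A) := by
  intro p hp hd
  rw [card_cj] at hd
  exact h p hp hd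

theorem isPiSubgroup_sup {π : Set ℕ} {A B : Subgroup G} (hA : IsPiSubgroup π A) (hB : IsPiSubgroup π B)
    (hn : B ≤ normalizer (A : Set G)) : IsPiSubgroup π (A ⊔ B) := by
  intro p hp hd
  have h1 : Nat.card (A ⊔ B : Subgroup G) ∣ Nat.card A * Nat.card B := by
    have h2 : (A.subgroupOf (A ⊔ B)).Normal :=
      (normal_subgroupOf_iff_le_normalizer le_sup_left).mpr (sup_le le_normalizer hn)
    have h3 : A.relIndex (A ⊔ B) = A.relIndex B := by
      have h5 := relIndex_sup_right (B.subgroupOf (A ⊔ B)) (A.subgroupOf (A ⊔ B))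
      rw [← subgroupOf_sup le_sup_right le_sup_left, sup_comm B A, subgroupOf_self] at h5
      rw [relIndex_top_right] at h5
      change (A.subgroupOf (A ⊔ B)).index = _
      rw [h5, relIndex_subgroupOf le_sup_right]
    have h4 : Nat.card A * A.relIndex (A ⊔ B) = Nat.card (A ⊔ B : Subgroup G) := by
      have := (A.subgroupOf (A ⊔ B)).card_mul_index
      rwa [Nat.card_congr (subgroupOfEquivOfLe le_sup_left).toEquiv] at this
    rw [← h4, h3]
    exact Nat.mul_dvd_mul_left _ (relIndex_dvd_card A B)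
  rcases hp.dvd_mul.mp (hd.trans h1) with h | h
  · exact hA p hp h
  · exact hB p hp h

end

/-- a minimal supplement of a normal subgroup of `π`-index is a `π`-group -/
theorem exists_supplement (π : Set ℕ) : ∀ (n : ℕ) (N : Type u) [Group N] [Finite N] (C : Subgroup N) [C.Normal],
    Nat.card N = n → (∀ p : ℕ, p.Prime → p ∣ C.index → p ∈ π) → ∃ L : Subgroup N, IsPiSubgroup π L ∧ L ⊔ C = ⊤ := by
  intro n
  induction n using Nat.strong_induction_on with
  | _ n ih =>
    intro N _ _ C _ hn hC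
    by_cases hN : IsPiSubgroup π (⊤ : Subgroup N)
    · exact ⟨⊤, hN, top_sup_eq _⟩
    -- it suffices to find a proper supplement
    suffices h : ∃ M : Subgroup N, M ≠ ⊤ ∧ M ⊔ C = ⊤ by
      obtain ⟨M, hM, hMC⟩ := h
      have hlt : Nat.card M < n := by
        rw [← hn, ← card_top (G := N)]
        exact lt_of_le_of_ne (Subgroup.card_le_of_le le_top)
          (fun e => hM (Subgroup.eq_of_le_of_card_ge le_top e.ge))
      haveI : (C.subgroupOf M).Normal := inferInstance
      obtain ⟨L, hL, hLC⟩ := ih _ hlt M (C.subgroupOf M) rfl (by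
        intro p hp hd
        exact hC p hp (hd.trans (relIndex_dvd_index_of_normal C M)))
      refine ⟨L.map M.subtype, ?_, ?_⟩
      · intro p hp hd
        rw [Subgroup.card_map_of_injective M.subtype_injective] at hd
        exact hL p hp hd
      · rw [eq_top_iff, ← hMC]
        refine sup_le ?_ le_sup_right
        have h1 : M = (L ⊔ C.subgroupOf M).map M.subtype := by
          rw [hLC, ← MonoidHom.range_eq_map, range_subtype]
        calc M = (L ⊔ C.subgroupOf M).map M.subtype := h1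
          _ = L.map M.subtype ⊔ (C.subgroupOf M).map M.subtype := map_sup _ _ _
          _ ≤ L.map M.subtype ⊔ C := by
            refine sup_le le_sup_left (le_trans ?_ le_sup_right)
            rw [subgroupOf_map_subtype]
            exact inf_le_left
    unfold IsPiSubgroup at hN
    push Not at hN
    obtain ⟨q, hq, hqd, hqπ⟩ := hN
    rw [card_top] at hqd
    haveI : Fact q.Prime := ⟨hq⟩
    have hqi : ¬ q ∣ C.index := fun h => hqπ (hC q hq h)
    have hqC : q ∣ Nat.card C := by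
      rw [← C.card_mul_index] at hqd
      exact (hq.dvd_mul.mp hqd).resolve_right hqi
    obtain ⟨Q⟩ : Nonempty (Sylow q C) := inferInstance
    have hfr := Sylow.normalizer_sup_eq_top Q
    by_cases hM : normalizer (((Q : Subgroup C).map C.subtype : Subgroup N) : Set N) = ⊤
    · set Q' : Subgroup N := (Q : Subgroup C).map C.subtype with hQ'
      have hQn : Q'.Normal := normalizer_eq_top_iff.mp hM
      have hQC : Q' ≤ C := map_subtype_le _
      have hcard : Nat.card Q' = Nat.card Q := Subgroup.card_map_of_injective C.subtype_injective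
      have hidx : ¬ q ∣ Q'.index := by
        rw [← relIndex_mul_index hQC, hq.dvd_mul]
        rintro (h | h)
        · have h2 : Q'.relIndex C = (Q : Subgroup C).index := by
            rw [relIndex, hQ', subgroupOf, comap_map_eq_self_of_injective C.subtype_injective]
          rw [h2] at h
          exact Q.not_dvd_index h
        · exact hqi h
      have hcop : Nat.Coprime (Nat.card Q') Q'.index := by
        obtain ⟨k, hk⟩ := IsPGroup.iff_card.mp Q.2
        rw [hcard, hk]
        exact Nat.Coprime.pow_left k ((Nat.Prime.coprime_iff_not_dvd hq).mpr hidx)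
      obtain ⟨K, hK⟩ := exists_right_complement'_of_coprime hcop
      refine ⟨K, ?_, ?_⟩
      · intro e
        have h1 := hK.card_mul_card
        rw [e, card_top] at h1
        have h2 : Nat.card Q' = 1 := by
          have hpos : 0 < Nat.card N := Nat.card_pos
          exact Nat.eq_of_mul_eq_mul_right hpos (by rw [h1, one_mul])
        have h3 : q ∣ Nat.card Q' := by
          rw [hcard]
          exact Q.dvd_card_of_dvd_card hqC
        rw [h2] at h3
        exact hq.one_lt.ne' (Nat.dvd_one.mp h3)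
      · rw [eq_top_iff, ← hK.sup_eq_top]
        exact sup_le (hQC.trans le_sup_right) le_sup_left
    · exact ⟨_, hM, hfr⟩

section

variable {G : Type u} [Group G]

/-- every `N_G(D)/C_G(D)` is a `π`-group, in terms of elements -/
def PH (π : Set ℕ) (G : Type u) [Group G] : Prop :=
  ∀ D : Subgroup G, D ≠ ⊥ → IsPiSubgroup π D → ∀ n ∈ normalizer (D : Set G),
    ∃ k : ℕ, (∀ p : ℕ, p.Prime → p ∣ k → p ∈ π) ∧ n ^ k ∈ centralizer (D : Set G)

theorem PH.subgroup {π : Set ℕ} (h : PH π G) (M : Subgroup G) : PH π M := by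
  intro D hD hDπ n hn
  have h1 : D.map M.subtype ≠ ⊥ := by
    intro e
    rw [Subgroup.map_eq_bot_iff_of_injective _ M.subtype_injective] at e
    exact hD e
  have h2 : IsPiSubgroup π (D.map M.subtype) := by
    intro p hp hd
    rw [Subgroup.card_map_of_injective M.subtype_injective] at hd
    exact hDπ p hp hd
  have h3 : (n : G) ∈ normalizer ((D.map M.subtype : Subgroup G) : Set G) := by
    rw [mem_nz_iff]
    rw [mem_nz_iff] at hn
    have : cj (n : G) (D.map M.subtype) = (cj n D).map M.subtype := by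
      rw [cj, cj, map_map, map_map]; rfl
    rw [this, hn]
  obtain ⟨k, hk, hk2⟩ := h _ h1 h2 _ h3
  refine ⟨k, hk, ?_⟩
  rw [mem_centralizer_iff] at hk2 ⊢
  intro d hd
  apply Subtype.ext
  exact hk2 d ⟨d, hd, rfl⟩

variable [Finite G]

theorem PH.cover {π : Set ℕ} (h : PH π G) {D : Subgroup G} (hD : D ≠ ⊥) (hDπ : IsPiSubgroup π D) :
    ∃ L : Subgroup G, L ≤ normalizer (D : Set G) ∧ IsPiSubgroup π L ∧
      ∀ n ∈ normalizer (D : Set G), ∃ l ∈ L, ∃ c ∈ centralizer (D : Set G), n = c * l := by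
  set N := normalizer (D : Set G) with hN
  set C : Subgroup N := (centralizer (D : Set G)).subgroupOf N with hC
  haveI : C.Normal := by
    constructor
    intro c hc g
    rw [hC, mem_subgroupOf, mem_centralizer_iff] at hc ⊢
    intro d hd
    have h1 : (g : G)⁻¹ * d * g ∈ D := by
      have := mem_nz_iff.mp g.2
      have h2 : d ∈ cj (g : G) D := by rw [this]; exact hd
      exact mem_cj.mp h2
    have h2 := hc _ h1
    push_cast
    calc d * ((g : G) * c * (g : G)⁻¹) = g * (((g : G)⁻¹ * d * g) * c) * (g : G)⁻¹ := by group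
      _ = g * (c * ((g : G)⁻¹ * d * g)) * (g : G)⁻¹ := by rw [h2]
      _ = (g : G) * c * (g : G)⁻¹ * d := by group
  obtain ⟨L, hL, hLC⟩ := exists_supplement π _ N C rfl (by
    intro p hp hd
    haveI : Fact p.Prime := ⟨hp⟩
    obtain ⟨x, hx⟩ := exists_prime_orderOf_dvd_card' (G := N ⧸ C) p hd
    obtain ⟨n, rfl⟩ := QuotientGroup.mk_surjective x
    obtain ⟨k, hk, hk2⟩ := h D hD hDπ n n.2
    apply hk p hp
    rw [← hx]
    apply orderOf_dvd_of_pow_eq_one
    change ((n ^ k : N) : N ⧸ C) = 1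
    rw [QuotientGroup.eq_one_iff, hC, mem_subgroupOf]
    exact hk2)
  clear_value C
  clear_value N
  have hC' : ∀ c ∈ C, (c : G) ∈ centralizer (D : Set G) := by
    intro c hc
    rw [hC] at hc
    exact hc
  refine ⟨L.map N.subtype, map_subtype_le _, ?_, ?_⟩
  · intro p hp hd
    rw [Subgroup.card_map_of_injective N.subtype_injective] at hd
    exact hL p hp hd
  · intro n hn
    have h1 : (⟨n, hn⟩ : N) ∈ C ⊔ L := by
      rw [sup_comm] at hLC
      rw [hLC]
      trivial
    rw [← SetLike.mem_coe, Subgroup.normal_mul, Set.mem_mul] at h1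
    obtain ⟨c, hc, l, hl, hcl⟩ := h1
    exact ⟨l, ⟨l, hl, rfl⟩, c, hC' c hc, (congrArg Subtype.val hcl).symm⟩

/-- `H` is a `π`-subgroup containing a conjugate of each `π`-subgroup -/
structure DP (π : Set ℕ) (H : Subgroup G) : Prop where
  pi : IsPiSubgroup π H
  dom : ∀ X : Subgroup G, IsPiSubgroup π X → ∃ g : G, cj g X ≤ H

/-- `P` is a Sylow `p`-subgroup of `H` -/
structure PS (p : ℕ) (H P : Subgroup G) : Prop where
  le : P ≤ H
  pg : IsPGroup p P
  conj : ∀ R : Subgroup G, R ≤ H → IsPGroup p R → ∃ h ∈ H, cj h R ≤ P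

theorem exists_PS (p : ℕ) [Fact p.Prime] (H : Subgroup G) : ∃ P : Subgroup G, PS p H P := by
  obtain ⟨P⟩ : Nonempty (Sylow p H) := inferInstance
  refine ⟨(P : Subgroup H).map H.subtype, map_subtype_le _, P.2.map _, ?_⟩
  intro R hR hRp
  have h1 : IsPGroup p (R.subgroupOf H) := hRp.comap_subtype
  obtain ⟨Q, hQ⟩ := h1.exists_le_sylow
  obtain ⟨h, hh⟩ := MulAction.exists_smul_eq H Q P
  refine ⟨h, h.2, ?_⟩
  rw [cj_le_iff]
  intro a ha
  refine ⟨h * ⟨a, hR ha⟩ * h⁻¹, ?_, rfl⟩
  rw [← hh, Sylow.coe_subgroup_smul]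
  exact ⟨⟨a, hR ha⟩, hQ ha, rfl⟩

section thmA

variable {π : Set ℕ} {p : ℕ} [Fact p.Prime] {H P : Subgroup G}

theorem thmA (hPH : PH π G) (hD : DP π H) (hpπ : p ∈ π) (hP : PS p H P) : ∀ (n : ℕ) (A : Subgroup G) (g : G),
    Nat.card P - Nat.card A = n → A ≤ P → cj g A ≤ P → ∃ h ∈ H, ∀ a ∈ A, h * a * h⁻¹ = g * a * g⁻¹ := by
  intro n
  induction n using Nat.strong_induction_on with
  | _ n ih =>
    intro A g hn hA hgA
    by_cases hA1 : A = ⊥
    · refine ⟨1, one_mem _, ?_⟩
      intro a ha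
      rw [hA1, mem_bot] at ha
      subst ha
      group
    have hAp : IsPGroup p A := hP.pg.to_le hA
    -- a conjugate `D` of `A` in `P` which is fully normalized
    obtain ⟨y, hyP, hF⟩ : ∃ y : G, cj y A ≤ P ∧ ∀ R : Subgroup G, IsPGroup p R → R ≤ normalizer (cj y A : Set G) →
        ∃ m ∈ normalizer (cj y A : Set G), cj m R ≤ P := by
      obtain ⟨S, hS⟩ := exists_PS p (normalizer (A : Set G))
      obtain ⟨z, hz⟩ := hD.dom S (isPiSubgroup_of_isPGroup hpπ hS.pg)
      obtain ⟨h, hh, hh2⟩ := hP.conj _ hz (isPGroup_cj hS.pg z)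
      rw [cj_cj] at hh2
      have hAS : A ≤ S := by
        obtain ⟨m, hm, hm2⟩ := hS.conj A le_normalizer hAp
        rwa [mem_nz_iff.mp hm] at hm2
      refine ⟨h * z, (cj_mono _ hAS).trans hh2, ?_⟩
      intro R hR hRn
      have h1 : cj (h * z)⁻¹ R ≤ normalizer (A : Set G) := by
        rw [← cj_nz] at hRn
        have := cj_mono (h * z)⁻¹ hRn
        rwa [cj_cj, inv_mul_cancel, cj_one] at this
      obtain ⟨m, hm, hm2⟩ := hS.conj _ h1 (isPGroup_cj hR _)
      refine ⟨(h * z) * m * (h * z)⁻¹, ?_, ?_⟩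
      · rw [← cj_nz]; exact conj_mem_cj hm
      · have h2 := (cj_mono (h * z) hm2).trans hh2
        rw [cj_cj, cj_cj] at h2
        exact h2
    set D := cj y A with hDdef
    have hDp : IsPGroup p D := isPGroup_cj hAp y
    have hD1 : D ≠ ⊥ := by
      intro e
      apply hA1
      have : cj y⁻¹ D = A := by rw [hDdef, cj_cj, inv_mul_cancel, cj_one]
      rw [← this, e, cj, Subgroup.map_bot]
    have hcardD : Nat.card D = Nat.card A := card_cj y A
    -- claim 1
    have claim1 : ∀ (B : Subgroup G) (k : G), B = cj k D → B ≤ P → ∃ h ∈ H, cj h B = D := by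
      intro B k hB hBP
      have hcB : Nat.card B = Nat.card A := by rw [hB, card_cj, hcardD]
      rcases hBP.eq_or_lt with hBe | hBlt
      · refine ⟨1, one_mem _, ?_⟩
        rw [cj_one]
        have h1 : D = P := Subgroup.eq_of_le_of_card_ge hyP (by rw [hcardD, ← hcB, hBe])
        rw [hBe, h1]
      · have h1 := Cfsg.Agent.Lib.GroupUtil.lt_inf_normalizer_of_isPGroup hP.pg hBlt
        set B2 := P ⊓ normalizer (B : Set G) with hB2
        have h2 : cj k⁻¹ B2 ≤ normalizer (D : Set G) := by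
          have h3 : B2 ≤ cj k (normalizer (D : Set G)) := by
            rw [cj_nz, ← hB]; exact inf_le_right
          have := cj_mono k⁻¹ h3
          rwa [cj_cj, inv_mul_cancel, cj_one] at this
        obtain ⟨m, hm, hm2⟩ := hF _ (isPGroup_cj (hP.pg.to_le inf_le_left) _) h2
        rw [cj_cj] at hm2
        have hlt : Nat.card B < Nat.card B2 := by
          refine lt_of_le_of_ne (Subgroup.card_le_of_le h1.le) (fun e => h1.ne ?_)
          exact Subgroup.eq_of_le_of_card_ge h1.le e.ge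
        have hle : Nat.card B2 ≤ Nat.card P := Subgroup.card_le_of_le inf_le_left
        obtain ⟨h, hh, hh2⟩ := ih (Nat.card P - Nat.card B2) (by omega) B2 (m * k⁻¹) rfl inf_le_left hm2
        refine ⟨h, hh, ?_⟩
        have h3 : cj h B = cj (m * k⁻¹) B := by
          ext x
          constructor
          · intro hx
            rw [mem_cj] at hx
            have h4 := hh2 _ (h1.le hx)
            have h5 : h * (h⁻¹ * x * h) * h⁻¹ = x := by group
            rw [h5] at h4
            rw [h4]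
            exact conj_mem_cj hx
          · intro hx
            rw [mem_cj] at hx
            have h4 := hh2 _ (h1.le hx)
            have h5 : (m * k⁻¹) * ((m * k⁻¹)⁻¹ * x * (m * k⁻¹)) * (m * k⁻¹)⁻¹ = x := by group
            rw [h5] at h4
            rw [← h4]
            exact conj_mem_cj hx
        rw [h3, ← cj_cj, hB, cj_cj k⁻¹ k, inv_mul_cancel, cj_one]
        exact mem_nz_iff.mp hm
    -- claim 2
    have claim2 : ∀ n ∈ normalizer (D : Set G), ∃ h ∈ H, ∀ d ∈ D, h * d * h⁻¹ = n * d * n⁻¹ := by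
      have hDπ : IsPiSubgroup π D := isPiSubgroup_of_isPGroup hpπ hDp
      obtain ⟨L, hLn, hLπ, hLc⟩ := hPH.cover hD1 hDπ
      obtain ⟨x, hx⟩ := hD.dom _ (isPiSubgroup_sup hDπ hLπ hLn)
      have hxD : cj x D ≤ H := (cj_mono x le_sup_left).trans hx
      have hxL : cj x L ≤ H := (cj_mono x le_sup_right).trans hx
      obtain ⟨h1, hh1, hh1P⟩ := hP.conj _ hxD (isPGroup_cj hDp x)
      rw [cj_cj] at hh1P
      obtain ⟨h2, hh2, hh2D⟩ := claim1 _ (h1 * x) rfl hh1P
      rw [cj_cj] at hh2D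
      set z := h2 * (h1 * x) with hz
      have hzn : z ∈ normalizer (D : Set G) := mem_nz_iff.mpr hh2D
      have hzL : ∀ l ∈ L, z * l * z⁻¹ ∈ H := by
        intro l hl
        have h3 : x * l * x⁻¹ ∈ H := hxL (conj_mem_cj hl)
        have h4 : z * l * z⁻¹ = (h2 * h1) * (x * l * x⁻¹) * (h2 * h1)⁻¹ := by rw [hz]; group
        rw [h4]
        exact mul_mem (mul_mem (mul_mem hh2 hh1) h3) (inv_mem (mul_mem hh2 hh1))
      intro n hn
      obtain ⟨l, hl, c, hc, hcl⟩ := hLc (z⁻¹ * n * z) (mul_mem (mul_mem (inv_mem hzn) hn) hzn)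
      refine ⟨z * l * z⁻¹, hzL l hl, ?_⟩
      intro d hd
      have hd' : z⁻¹ * d * z ∈ D := by
        have := mem_nz_iff.mp hzn
        have h3 : d ∈ cj z D := by rw [this]; exact hd
        exact mem_cj.mp h3
      have hln := hLn hl
      have hd2 : l * (z⁻¹ * d * z) * l⁻¹ ∈ D := (mem_normalizer_iff.mp hln _).mp hd'
      have h5 := mem_centralizer_iff.mp hc _ hd2
      have h6 : n = z * (c * l) * z⁻¹ := by rw [← hcl]; group
      rw [h6]
      calc z * l * z⁻¹ * d * (z * l * z⁻¹)⁻¹ = z * (l * (z⁻¹ * d * z) * l⁻¹) * z⁻¹ := by group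
        _ = z * ((l * (z⁻¹ * d * z) * l⁻¹) * c * c⁻¹) * z⁻¹ := by group
        _ = z * (c * (l * (z⁻¹ * d * z) * l⁻¹) * c⁻¹) * z⁻¹ := by rw [h5]
        _ = z * (c * l) * z⁻¹ * d * (z * (c * l) * z⁻¹)⁻¹ := by group
    -- conclusion
    have hAD : A = cj y⁻¹ D := by rw [hDdef, cj_cj, inv_mul_cancel, cj_one]
    obtain ⟨hA', hhA, hhA2⟩ := claim1 A y⁻¹ hAD hA
    obtain ⟨hB', hhB, hhB2⟩ := claim1 (cj g A) (g * y⁻¹) (by rw [← cj_cj, ← hAD]) hgA
    rw [cj_cj] at hhB2
    have hnn : hB' * g * hA'⁻¹ ∈ normalizer (D : Set G) := by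
      rw [mem_nz_iff]
      rw [← cj_cj, ← hhA2, cj_cj hA'⁻¹ hA', inv_mul_cancel, cj_one, hhB2, hhA2]
    obtain ⟨h', hh', hh'2⟩ := claim2 _ hnn
    refine ⟨hB'⁻¹ * h' * hA', mul_mem (mul_mem (inv_mem hhB) hh') hhA, ?_⟩
    intro a ha
    have hd : hA' * a * hA'⁻¹ ∈ D := by rw [← hhA2]; exact conj_mem_cj ha
    have h1 := hh'2 _ hd
    calc hB'⁻¹ * h' * hA' * a * (hB'⁻¹ * h' * hA')⁻¹ = hB'⁻¹ * (h' * (hA' * a * hA'⁻¹) * h'⁻¹) * hB' := by group
      _ = hB'⁻¹ * (hB' * g * hA'⁻¹ * (hA' * a * hA'⁻¹) * (hB' * g * hA'⁻¹)⁻¹) * hB' := by rw [h1]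
      _ = g * a * g⁻¹ := by group

/-- fusion of `p`-elements -/
theorem fus_p (hPH : PH π G) (hD : DP π H) (hpπ : p ∈ π) {u g : G} (hu : u ∈ H) (hup : IsPGroup p (zpowers u))
    (hg : g * u * g⁻¹ ∈ H) : ∃ h ∈ H, h * u * h⁻¹ = g * u * g⁻¹ := by
  obtain ⟨P, hP⟩ := exists_PS p H
  obtain ⟨a, ha, haP⟩ := hP.conj (zpowers u) (by rwa [zpowers_le]) hup
  obtain ⟨b, hb, hbP⟩ := hP.conj (cj g (zpowers u)) (by
    rw [cj_le_iff]
    rintro _ ⟨k, rfl⟩
    change g * u ^ k * g⁻¹ ∈ H
    rw [← conj_zpow]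
    exact zpow_mem hg k) (isPGroup_cj hup g)
  obtain ⟨h, hh, hh2⟩ := thmA hPH hD hpπ hP _ (cj a (zpowers u)) (b * g * a⁻¹) rfl haP (by
    rw [cj_cj, inv_mul_cancel_right, ← cj_cj]; exact hbP)
  have h1 := hh2 _ (conj_mem_cj (mem_zpowers u))
  refine ⟨b⁻¹ * h * a, mul_mem (mul_mem (inv_mem hb) hh) ha, ?_⟩
  calc b⁻¹ * h * a * u * (b⁻¹ * h * a)⁻¹ = b⁻¹ * (h * (a * u * a⁻¹) * h⁻¹) * b := by group
    _ = b⁻¹ * (b * g * a⁻¹ * (a * u * a⁻¹) * (b * g * a⁻¹)⁻¹) * b := by rw [h1]
    _ = g * u * g⁻¹ := by group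

end thmA

end

theorem isPGroup_zpowers_of_PEl {G : Type u} [Group G] [Finite G] {p : ℕ} [Fact p.Prime] {x : G}
    (hx : Cfsg.Agent.Lib.CentMaximal.PEl p x) : IsPGroup p (zpowers x) := by
  obtain ⟨k, hk⟩ := hx.pow
  exact IsPGroup.of_card (n := k) (by rw [Nat.card_zpowers, hk])

/-- `π`-elements of `H` which are conjugate in `G` are conjugate in `H` -/
theorem fus_all (π : Set ℕ) : ∀ (n : ℕ) (G : Type u) [Group G] [Finite G] (H : Subgroup G), Nat.card G = n →
    PH π G → DP π H → ∀ (x g : G), x ∈ H → g * x * g⁻¹ ∈ H → ∃ h ∈ H, h * x * h⁻¹ = g * x * g⁻¹ := by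
  intro n
  induction n using Nat.strong_induction_on with
  | _ n ih =>
    intro G _ _ H hn hPH hD x g hx hg
    by_cases hxc : x ∈ center G
    · refine ⟨1, one_mem _, ?_⟩
      rw [mem_center_iff] at hxc
      rw [hxc g]; group
    obtain ⟨p, hp, u, huz, huc, hup⟩ := Cfsg.Agent.Lib.CentMaximal.exists_primary (center G) _ x le_rfl hxc
    haveI : Fact p.Prime := ⟨hp⟩
    have huH : u ∈ H := by
      have : zpowers x ≤ H := by rwa [zpowers_le]
      exact this huz
    obtain ⟨j, hj⟩ := huz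
    change x ^ j = u at hj
    have hu1 : orderOf u ≠ 1 := by
      intro e
      rw [orderOf_eq_one_iff] at e
      exact huc (e ▸ one_mem _)
    have hpπ : p ∈ π := by
      apply hD.pi p hp
      obtain ⟨k, hk⟩ := hup.pow
      have h1 : k ≠ 0 := by rintro rfl; exact hu1 (by rw [hk, pow_zero])
      have h2 : orderOf u ∣ Nat.card H := Subgroup.orderOf_dvd_natCard H huH
      exact (dvd_pow_self p h1).trans (hk ▸ h2)
    have hupg := isPGroup_zpowers_of_PEl hup
    have hgu : g * u * g⁻¹ ∈ H := by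
      rw [← hj, ← conj_zpow]
      exact zpow_mem hg j
    obtain ⟨h1, hh1, hh1u⟩ := fus_p hPH hD hpπ huH hupg hgu
    -- now `h1⁻¹ g` centralizes `u`
    have hg1 : (h1⁻¹ * g) ∈ centralizer ({u} : Set G) := by
      rw [mem_centralizer_singleton_iff]
      have : h1⁻¹ * g * u = h1⁻¹ * (g * u * g⁻¹) * g := by group
      rw [this, ← hh1u]; group
    have hxC : x ∈ centralizer ({u} : Set G) := by
      rw [mem_centralizer_singleton_iff, ← hj]
      exact ((Commute.refl x).zpow_right j).eq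
    set C := centralizer ({u} : Set G) with hC
    have hClt : Nat.card C < n := by
      rw [← hn, ← card_top (G := G)]
      refine lt_of_le_of_ne (Subgroup.card_le_of_le le_top) (fun e => huc ?_)
      have h2 : C = ⊤ := Subgroup.eq_of_le_of_card_ge le_top e.ge
      rw [mem_center_iff]
      intro y
      have : y ∈ C := by rw [h2]; exact mem_top y
      rw [hC, mem_centralizer_singleton_iff] at this
      exact this
    have hDC : DP π (H.subgroupOf C) := by
      constructor
      · intro q hq hqd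
        apply hD.pi q hq
        have h2 : Nat.card (H.subgroupOf C) ∣ Nat.card H := by
          rw [← inf_subgroupOf_right, Nat.card_congr (subgroupOfEquivOfLe inf_le_right).toEquiv]
          exact card_dvd_of_le inf_le_left
        exact hqd.trans h2
      · intro X hX
        have hX' : IsPiSubgroup π (X.map C.subtype) := by
          intro q hq hqd
          rw [Subgroup.card_map_of_injective C.subtype_injective] at hqd
          exact hX q hq hqd
        have hnorm : X.map C.subtype ≤ normalizer ((zpowers u : Subgroup G) : Set G) := by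
          refine le_trans ?_ (centralizer_le_normalizer _)
          rintro _ ⟨c, hc, rfl⟩
          rw [mem_centralizer_iff]
          rintro _ ⟨k, rfl⟩
          have h2 := mem_centralizer_singleton_iff.mp c.2
          have h3 : Commute (c : G) u := h2
          exact (h3.symm.zpow_left k).eq
        obtain ⟨z, hz⟩ := hD.dom _ (isPiSubgroup_sup (isPiSubgroup_of_isPGroup hpπ hupg) hX' hnorm)
        have hzu : z * u * z⁻¹ ∈ H := hz (conj_mem_cj (le_sup_left (a := zpowers u) (mem_zpowers u)))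
        obtain ⟨h2, hh2, hh2u⟩ := fus_p hPH hD hpπ huH hupg hzu
        have hcC : h2⁻¹ * z ∈ C := by
          rw [hC, mem_centralizer_singleton_iff]
          have : h2⁻¹ * z * u = h2⁻¹ * (z * u * z⁻¹) * z := by group
          rw [this, ← hh2u]; group
        refine ⟨⟨h2⁻¹ * z, hcC⟩, ?_⟩
        rw [cj_le_iff]
        intro a ha
        rw [mem_subgroupOf]
        have h3 : z * (a : G) * z⁻¹ ∈ H := hz (conj_mem_cj (le_sup_right (a := zpowers u) ⟨a, ha, rfl⟩))
        have h4 : ((⟨h2⁻¹ * z, hcC⟩ * a * ⟨h2⁻¹ * z, hcC⟩⁻¹ : C) : G) = h2⁻¹ * (z * a * z⁻¹) * h2 := by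
          push_cast
          group
        rw [h4]
        exact mul_mem (mul_mem (inv_mem hh2) h3) hh2
    obtain ⟨h, hh, hh2⟩ := ih _ hClt C (H.subgroupOf C) rfl (hPH.subgroup C) hDC ⟨x, hxC⟩ ⟨h1⁻¹ * g, hg1⟩ hx (by
      rw [mem_subgroupOf]
      have h4 : ((⟨h1⁻¹ * g, hg1⟩ * ⟨x, hxC⟩ * ⟨h1⁻¹ * g, hg1⟩⁻¹ : C) : G) = h1⁻¹ * (g * x * g⁻¹) * h1 := by
        push_cast
        group
      rw [h4]
      exact mul_mem (mul_mem (inv_mem hh1) hg) hh1)
    have h5 : (h : G) * x * (h : G)⁻¹ = (h1⁻¹ * g) * x * (h1⁻¹ * g)⁻¹ := congrArg Subtype.val hh2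
    refine ⟨h1 * h, mul_mem hh1 hh, ?_⟩
    calc h1 * h * x * (h1 * h)⁻¹ = h1 * ((h : G) * x * (h : G)⁻¹) * h1⁻¹ := by group
      _ = h1 * ((h1⁻¹ * g) * x * (h1⁻¹ * g)⁻¹) * h1⁻¹ := by rw [h5]
      _ = g * x * g⁻¹ := by group

/-- The main theorem: groups with the full Sylow property for `π` which are `π`-homogeneous are `π'`-closed. -/
theorem main {G : Type u} [Group G] [Finite G] (π : Set ℕ) (hD : IsDPiGroup π G)
    (hhom : (∀ H : Subgroup G, H ≠ ⊥ → (∀ p : ℕ, p.Prime → p ∣ Nat.card ↥H → p ∈ π) →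
        ∀ p : ℕ, p.Prime → p ∣ (Subgroup.centralizer (H : Set G)).relIndex (Subgroup.normalizer (H : Set G)) → p ∈ π)) :
    (∃ K : Subgroup G, ∀ x : G, x ∈ K ↔ ∀ p : ℕ, p.Prime → p ∣ orderOf x → p ∉ π) := by
  have hPH : PH π G := by
    intro D hD1 hDπ n hn
    refine ⟨_, hhom D hD1 hDπ, ?_⟩
    haveI : ((centralizer (D : Set G)).subgroupOf (normalizer (D : Set G))).Normal := by
      constructor
      intro c hc g
      rw [mem_subgroupOf, mem_centralizer_iff] at hc ⊢
      intro d hd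
      have h1 : (g : G)⁻¹ * d * g ∈ D := by
        have := mem_nz_iff.mp g.2
        have h2 : d ∈ cj (g : G) D := by rw [this]; exact hd
        exact mem_cj.mp h2
      have h2 := hc _ h1
      push_cast
      calc d * ((g : G) * c * (g : G)⁻¹) = g * (((g : G)⁻¹ * d * g) * c) * (g : G)⁻¹ := by group
        _ = g * (c * ((g : G)⁻¹ * d * g)) * (g : G)⁻¹ := by rw [h2]
        _ = (g : G) * c * (g : G)⁻¹ * d := by group
    have h1 := pow_index_mem ((centralizer (D : Set G)).subgroupOf (normalizer (D : Set G))) ⟨n, hn⟩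
    exact h1
  -- a maximal `π`-subgroup
  have hex : ∀ X : Subgroup G, IsPiSubgroup π X → ∃ M : Subgroup G, X ≤ M ∧ Maximal (IsPiSubgroup π) M := by
    intro X hX
    exact Finite.exists_le_maximal hX
  obtain ⟨H, -, hH⟩ := hex ⊥ (by
    intro p hp hd
    rw [card_bot] at hd
    exact absurd (Nat.dvd_one.mp hd) hp.one_lt.ne')
  have hDP : DP π H := by
    refine ⟨hH.prop, fun X hX => ?_⟩
    obtain ⟨M, hXM, hM⟩ := hex X hX
    obtain ⟨g, hg⟩ := hD M H hM hH
    exact ⟨g, by rw [hg]; exact map_mono hXM⟩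
  have hHall : ∀ p : ℕ, p.Prime → p ∈ π → ¬ p ∣ H.index := by
    intro p hp hpπ hd
    haveI : Fact p.Prime := ⟨hp⟩
    obtain ⟨P⟩ : Nonempty (Sylow p G) := inferInstance
    obtain ⟨g, hg⟩ := hDP.dom P (isPiSubgroup_of_isPGroup hpπ P.2)
    have h1 : cj g (P : Subgroup G) = ((g • P : Sylow p G) : Subgroup G) := rfl
    rw [h1] at hg
    exact (g • P).not_dvd_index (hd.trans (index_dvd_of_le hg))
  have hcop : Nat.Coprime (Nat.card H) H.index := by
    rw [Nat.coprime_iff_gcd_eq_one]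
    by_contra hne
    obtain ⟨r, hr, hrd⟩ := Nat.exists_prime_and_dvd hne
    exact hHall r hr (hDP.pi r hr (hrd.trans (Nat.gcd_dvd_left _ _))) (hrd.trans (Nat.gcd_dvd_right _ _))
  obtain ⟨K, hKn, hK1, hK2⟩ := Cfsg.Agent.Lib.BrauerApp.normal_complement H hcop (by
    intro x hx y hy hxy
    obtain ⟨g, rfl⟩ := isConj_iff.mp hxy
    exact fus_all π _ G H rfl hPH hDP x g hx hy) (by
    intro E p _ _ hE
    exact hDP.dom E (fun q hq hqd => hDP.pi q hq (hqd.trans hE)))
  have hcompl : IsComplement' K H := isComplement'_of_disjoint_and_mul_eq_univ (disjoint_iff.mpr hK2) (by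
    rw [← Subgroup.normal_mul, hK1]; rfl)
  have hcK : Nat.card K = H.index := hcompl.card_left
  have hiK : K.index = Nat.card H := hcompl.symm.index_eq_card
  refine ⟨K, fun x => ⟨fun hx p hp hd hpπ => ?_, fun hx => ?_⟩⟩
  · apply hHall p hp hpπ
    rw [← hcK]
    exact hd.trans (Subgroup.orderOf_dvd_natCard K hx)
  · -- the image in `G ⧸ K` has order dividing both
    rw [← QuotientGroup.eq_one_iff, ← orderOf_eq_one_iff]
    by_contra hne
    obtain ⟨r, hr, hrd⟩ := Nat.exists_prime_and_dvd hne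
    have h1 : r ∣ Nat.card H := by
      rw [← hiK]
      exact hrd.trans (orderOf_dvd_natCard _)
    have h2 : r ∣ orderOf x := hrd.trans (orderOf_map_dvd (QuotientGroup.mk' K) x)
    exact hx r hr h2 (hDP.pi r hr h1)

end Cfsg.Agent.Lib.DPi
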