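import Mathlib
import Cfsg.Prelude.Def_DStar
import Cfsg.Prelude.Def_PLocal
import Cfsg.Agent.Lib.DStar
import Cfsg.Agent.Lib.LocBase

set_option autoImplicit false
set_option linter.unusedSectionVars false

namespace Cfsg.Agent.Lib.DStarThm

open Subgroup
open scoped commutatorElement
open Cfsg.Agent.Lib.DStar
open Cfsg.Agent.Lib

variable {G : Type*} [Group G]

theorem dStarOf_le (P : Subgroup G) : Cfsg.dStarOf P ≤ P := by
  rintro _ ⟨x, _, rfl⟩
  exact x.2

/-- `dStarOf` is equivariant under conjugation. -/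
theorem dStarOf_conj (P : Subgroup G) (g : G) :
    Cfsg.dStarOf (P.map (MulAut.conj g).toMonoidHom) = (Cfsg.dStarOf P).map (MulAut.conj g).toMonoidHom := by
  have e := P.equivMapOfInjective (MulAut.conj g).toMonoidHom (MulAut.conj g).injective
  have h := dStar_map (P.equivMapOfInjective (MulAut.conj g).toMonoidHom (MulAut.conj g).injective)
  unfold Cfsg.dStarOf
  rw [← h, map_map, map_map]
  congr 1

theorem normalizer_le (P : Subgroup G) : normalizer (P : Set G) ≤ normalizer (Cfsg.dStarOf P : Set G) := by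
  intro n hn
  rw [mem_normalizer_iff_map_conj_eq] at hn ⊢
  have := dStarOf_conj P n
  have h2 : P.map (MulAut.conj n).toMonoidHom = P := hn
  rw [h2] at this
  exact this.symm

theorem le_normalizer_dStarOf (P : Subgroup G) : P ≤ normalizer (Cfsg.dStarOf P : Set G) :=
  le_normalizer.trans (normalizer_le P)

variable [Finite G] {p : ℕ} [Fact p.Prime]

theorem dStarOf_comm {P : Subgroup G} (hP : IsPGroup p P) : IsMulCommutative (Cfsg.dStarOf P) := by
  have := hP.isNilpotent
  have h := dStar_comm (S := P)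
  apply of_comm
  rintro _ ⟨x, hx, rfl⟩ _ ⟨y, hy, rfl⟩
  rw [← map_mul, ← map_mul, comm_of h hx hy]

theorem centralizes {P : Subgroup G} (hP : IsPGroup p P) {B : Subgroup G} (hBP : B ≤ P) (hB : IsMulCommutative B)
    (hn : Cfsg.dStarOf P ≤ normalizer (B : Set G)) : ∀ d ∈ Cfsg.dStarOf P, ∀ b ∈ B, d * b = b * d := by
  have := hP.isNilpotent
  have h := family_centralizes (dStar_mem_family (S := P)) (B.subgroupOf P)
    (of_comm fun x hx y hy => Subtype.ext (comm_of hB hx hy)) (by
      intro d hd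
      have h1 : (d : G) ∈ normalizer (B : Set G) := hn ⟨d, hd, rfl⟩
      rw [mem_normalizer_iff] at h1 ⊢
      intro x
      exact h1 x)
  rintro _ ⟨d, hd, rfl⟩ b hb
  rw [commutator_comm, commutator_eq_bot_iff_le_centralizer] at h
  have h2 := h hd
  rw [mem_centralizer_iff] at h2
  have h3 := h2 ⟨b, hBP hb⟩ hb
  exact (congrArg Subtype.val h3).symm

theorem map_triple (P : Subgroup G) (A : Subgroup P) (x : P)
    (h : ⁅⁅A.map P.subtype ⊔ zpowers (x : G), A.map P.subtype ⊔ zpowers (x : G)⁆, A.map P.subtype ⊔ zpowers (x : G)⁆ = ⊥) :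
    ⁅⁅A ⊔ zpowers x, A ⊔ zpowers x⁆, A ⊔ zpowers x⁆ = ⊥ := by
  have h1 : A.map P.subtype ⊔ zpowers (x : G) = (A ⊔ zpowers x).map P.subtype := by
    rw [Subgroup.map_sup, MonoidHom.map_zpowers]; rfl
  rw [h1, ← map_commutator, ← map_commutator] at h
  exact (map_eq_bot_iff_of_injective _ P.subtype_injective).mp h

theorem map_triple' (P : Subgroup G) (A : Subgroup P) (x : P)
    (h : ⁅⁅A ⊔ zpowers x, A ⊔ zpowers x⁆, A ⊔ zpowers x⁆ = ⊥) :
    ⁅⁅A.map P.subtype ⊔ zpowers (x : G), A.map P.subtype ⊔ zpowers (x : G)⁆, A.map P.subtype ⊔ zpowers (x : G)⁆ = ⊥ := by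
  have h1 : A.map P.subtype ⊔ zpowers (x : G) = (A ⊔ zpowers x).map P.subtype := by
    rw [Subgroup.map_sup, MonoidHom.map_zpowers]; rfl
  rw [h1, ← map_commutator, ← map_commutator, h, Subgroup.map_bot]

theorem class_two {P : Subgroup G} (hP : IsPGroup p P) {x : G} (hx : x ∈ P)
    (h : ⁅⁅Cfsg.dStarOf P ⊔ zpowers x, Cfsg.dStarOf P ⊔ zpowers x⁆, Cfsg.dStarOf P ⊔ zpowers x⁆ = ⊥) :
    ∀ d ∈ Cfsg.dStarOf P, d * x = x * d := by
  have := hP.isNilpotent
  rintro _ ⟨d, hd, rfl⟩
  have h2 := (dStar_mem_family (S := P)).2 ⟨x, hx⟩ (map_triple P _ ⟨x, hx⟩ h) d hd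
  exact congrArg Subtype.val h2

theorem le_dStarOf {P : Subgroup G} {W : Subgroup G} (hWP : W ≤ P) (hW : IsMulCommutative W)
    (h : ∀ x ∈ P, ⁅⁅W ⊔ zpowers x, W ⊔ zpowers x⁆, W ⊔ zpowers x⁆ = ⊥ → ∀ w ∈ W, w * x = x * w) :
    W ≤ Cfsg.dStarOf P := by
  have hm : (W.subgroupOf P).map P.subtype = W := by
    rw [Subgroup.subgroupOf_map_subtype, inf_eq_left.mpr hWP]
  have hf : W.subgroupOf P ∈ Cfsg.dStarFamily P := by
    refine ⟨of_comm fun x hx y hy => Subtype.ext (comm_of hW hx hy), ?_⟩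
    intro x hx a ha
    have h1 := map_triple' P (W.subgroupOf P) x hx
    rw [hm] at h1
    exact Subtype.ext (h x x.2 h1 a ha)
  rw [← hm]
  exact Subgroup.map_mono (le_sSup hf)

/-- the preimage of `O_p(G/C)` with `C` a normal `p`-subgroup lies in `O_p(G)` -/
theorem mem_pCore_of_quotient (C : Subgroup G) [C.Normal] (hC : IsPGroup p C) {x : G}
    (hx : (QuotientGroup.mk x : G ⧸ C) ∈ Cfsg.pCore p (G ⧸ C)) : x ∈ Cfsg.pCore p G := by
  have h1 : IsPGroup p (Cfsg.pCore p (G ⧸ C)) := LocBase.isPGroup_pCore p _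
  have h2 : IsPGroup p ((Cfsg.pCore p (G ⧸ C)).comap (QuotientGroup.mk' C)) := by
    apply h1.comap_of_ker_isPGroup
    rw [QuotientGroup.ker_mk']
    exact hC
  have h3 : (Cfsg.pCore p (G ⧸ C)).comap (QuotientGroup.mk' C) ≤ Cfsg.pCore p G :=
    LocBase.le_pCore inferInstance h2
  exact h3 hx

theorem quad_of_class_two {W : Subgroup G} {x : G}
    (h : ⁅⁅W ⊔ zpowers x, W ⊔ zpowers x⁆, W ⊔ zpowers x⁆ = ⊥) : ⁅⁅W, zpowers x⁆, zpowers x⁆ = ⊥ := by
  rw [eq_bot_iff, ← h]
  exact commutator_mono (commutator_mono le_sup_left le_sup_right) le_sup_right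

theorem class_two_mono {W V : Subgroup G} {x : G} (hVW : V ≤ W)
    (h : ⁅⁅W ⊔ zpowers x, W ⊔ zpowers x⁆, W ⊔ zpowers x⁆ = ⊥) :
    ⁅⁅V ⊔ zpowers x, V ⊔ zpowers x⁆, V ⊔ zpowers x⁆ = ⊥ := by
  rw [eq_bot_iff, ← h]
  have := sup_le_sup_right hVW (zpowers x)
  exact commutator_mono (commutator_mono this this) this

/-- The `D*`-theorem of Glauberman and Solomon. -/
theorem dStar_normal
    (hc : Subgroup.centralizer (Cfsg.pCore p G : Set G) ≤ Cfsg.pCore p G)
    (hst : ∀ (P : Subgroup G) [P.Normal], IsPGroup p P → Cfsg.IsPStableOn p P) (S : Sylow p G) :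
    (Cfsg.dStarOf (S : Subgroup G)).Normal := by
  classical
  set D := Cfsg.dStarOf (S : Subgroup G) with hD
  set Q := Cfsg.pCore p G with hQ
  have hQp : IsPGroup p Q := LocBase.isPGroup_pCore p G
  have hQS : ∀ T : Sylow p G, Q ≤ T := fun T => hQp.le_sylow_of_normal T
  have hDS : D ≤ S := dStarOf_le _
  have hSD : (S : Subgroup G) ≤ normalizer (D : Set G) := le_normalizer_dStarOf _
  have hDcomm : IsMulCommutative D := dStarOf_comm S.2
  -- step a
  have hDQ : D ≤ Q := by
    intro d hd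
    have h1 : ⁅⁅Q, zpowers d⁆, zpowers d⁆ = ⊥ := by
      have hzd : zpowers d ≤ D := by rwa [zpowers_le]
      have h2 : ⁅Q, zpowers d⁆ ≤ D := by
        refine (commutator_mono le_rfl hzd).trans ?_
        exact LocBase.commutator_le_right_of_le ((hQS S).trans hSD)
      rw [eq_bot_iff]
      refine (commutator_mono h2 hzd).trans ?_
      rw [commutator_self_eq_bot_iff.mpr hDcomm]
    have h3 := hst Q hQp d h1
    exact mem_pCore_of_quotient _ (hQp.to_le hc) h3
  -- step b : conjugates of D commute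
  have hconj : ∀ g : G, ∀ d ∈ D, ∀ e ∈ D, d * (g * e * g⁻¹) = (g * e * g⁻¹) * d := by
    intro g d hd e he
    have hSg : (S : Subgroup G).map (MulAut.conj g).toMonoidHom = ((g • S : Sylow p G) : Subgroup G) := rfl
    have hDg : D.map (MulAut.conj g).toMonoidHom = Cfsg.dStarOf ((g • S : Sylow p G) : Subgroup G) := by
      rw [← hSg, dStarOf_conj]
    have hDgQ : D.map (MulAut.conj g).toMonoidHom ≤ Q := by
      rintro _ ⟨y, hy, rfl⟩
      exact (inferInstance : Q.Normal).conj_mem y (hDQ hy) g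
    refine centralizes S.2 (B := D.map (MulAut.conj g).toMonoidHom) (hDgQ.trans (hQS S)) ?_ ?_ d hd _ ⟨e, he, rfl⟩
    · rw [hDg]; exact dStarOf_comm (g • S).2
    · rw [hDg]
      exact (hDQ.trans (hQS (g • S))).trans (le_normalizer_dStarOf _)
  -- step c
  let W : Subgroup G := normalClosure (D : Set G)
  have hWn : W.Normal := normalClosure_normal
  have hWQ : W ≤ Q := normalClosure_le_normal hDQ
  have hWcomm : IsMulCommutative W := by
    apply Subgroup.isMulCommutative_closure
    intro a ha b hb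
    obtain ⟨d, hd, hda⟩ := Group.mem_conjugatesOfSet_iff.mp ha
    obtain ⟨e, he, heb⟩ := Group.mem_conjugatesOfSet_iff.mp hb
    obtain ⟨g, rfl⟩ := isConj_iff.mp hda
    obtain ⟨h, rfl⟩ := isConj_iff.mp heb
    have key := hconj (g⁻¹ * h) d hd e he
    calc g * d * g⁻¹ * (h * e * h⁻¹) = g * (d * ((g⁻¹ * h) * e * (g⁻¹ * h)⁻¹)) * g⁻¹ := by group
      _ = g * ((g⁻¹ * h) * e * (g⁻¹ * h)⁻¹ * d) * g⁻¹ := by rw [key]
      _ = h * e * h⁻¹ * (g * d * g⁻¹) := by group
  have hDW : D ≤ W := le_normalClosure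
  -- step d
  have hWD : W ≤ D := by
    apply le_dStarOf (hWQ.trans (hQS S)) hWcomm
    intro x hx hcl
    let C : Subgroup G := centralizer (W : Set G)
    have hCn : C.Normal := inferInstance
    have h1 := hst W (hQp.to_le hWQ) x (quad_of_class_two hcl)
    let K : Subgroup G := (Cfsg.pCore p (G ⧸ C)).comap (QuotientGroup.mk' C)
    have hKn : K.Normal := inferInstance
    have hxK : x ∈ K := h1
    have hCK : C ≤ K := by
      intro c hc
      show (QuotientGroup.mk' C) c ∈ Cfsg.pCore p (G ⧸ C)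
      have : (QuotientGroup.mk' C) c = 1 := by
        rw [QuotientGroup.mk'_apply, QuotientGroup.eq_one_iff]; exact hc
      rw [this]; exact one_mem _
    let R : Subgroup G := (S : Subgroup G) ⊓ K
    have hRK : LocBase.IsSyl p R K :=
      (LocBase.isSyl_top S).inf_normal le_top (by rw [normalizer_eq_top])
    -- K = C R
    have hKCR : K = C ⊔ R := by
      apply le_antisymm _ (sup_le hCK inf_le_right)
      have h4 : (C ⊔ R).relIndex K ∣ R.relIndex K := Subgroup.relIndex_dvd_of_le_left K le_sup_right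
      have h5 : (C ⊔ R).relIndex K ∣ C.relIndex K := Subgroup.relIndex_dvd_of_le_left K le_sup_left
      have h6 : ∃ n, C.relIndex K = p ^ n := by
        have h7 : IsPGroup p (Cfsg.pCore p (G ⧸ C)) := LocBase.isPGroup_pCore p _
        obtain ⟨n, hn⟩ := IsPGroup.iff_card.mp h7
        refine ⟨n, ?_⟩
        rw [← hn]
        have h8 := Subgroup.relIndex_ker (K := K) (QuotientGroup.mk' C)
        rw [QuotientGroup.ker_mk', Subgroup.map_comap_eq_self_of_surjective (QuotientGroup.mk'_surjective C)] at h8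
        exact h8
      obtain ⟨n, hn⟩ := h6
      rw [hn] at h5
      obtain ⟨k, _, hk2⟩ := (Nat.dvd_prime_pow Fact.out).mp h5
      have h9 : (C ⊔ R).relIndex K = 1 := by
        rw [hk2]
        rcases Nat.eq_zero_or_pos k with h0 | h0
        · rw [h0, pow_zero]
        · exfalso
          apply hRK.ndvd
          apply dvd_trans _ h4
          rw [hk2]
          exact dvd_pow_self p h0.ne'
      exact Subgroup.relIndex_eq_one.mp h9
    -- x centralizes all conjugates of D
    have hle : W ≤ centralizer {x} := by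
      show Subgroup.closure _ ≤ _
      rw [closure_le]
      intro a ha
      obtain ⟨d, hd, hda⟩ := Group.mem_conjugatesOfSet_iff.mp ha
      obtain ⟨g, rfl⟩ := isConj_iff.mp hda
      rw [SetLike.mem_coe, mem_centralizer_singleton_iff]
      -- Frattini : g = k * n
      obtain ⟨k, hk, n, hn, rfl⟩ := hRK.frattini le_top (by rw [normalizer_eq_top]) (mem_top g)
      have hk' : k ∈ C ⊔ R := by rw [← hKCR]; exact hk
      obtain ⟨c, hc, r, hr, rfl⟩ := LocBase.exists_mul_of_mem_sup_of_le (A := C) (B := R)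
        (by rw [normalizer_eq_top]; exact le_top) hk'
      have hm : r * n ∈ normalizer (R : Set G) := mul_mem (le_normalizer hr) hn.2
      set m := r * n with hmdef
      have hx' : m⁻¹ * x * m ∈ R := by
        have := (Subgroup.mem_normalizer_iff.mp (inv_mem hm) x).mp ⟨hx, hxK⟩
        simpa using this
      have hcl' : ⁅⁅W ⊔ zpowers (m⁻¹ * x * m), W ⊔ zpowers (m⁻¹ * x * m)⁆, W ⊔ zpowers (m⁻¹ * x * m)⁆ = ⊥ := by
        have h10 : W ⊔ zpowers (m⁻¹ * x * m) = (W ⊔ zpowers x).map (MulAut.conj m⁻¹).toMonoidHom := by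
          rw [Subgroup.map_sup, MonoidHom.map_zpowers]
          congr 1
          · exact (Subgroup.Normal.map_conj_eq W m⁻¹).symm
          · simp
        rw [h10, ← map_commutator, ← map_commutator, hcl, Subgroup.map_bot]
      have h11 := class_two S.2 hx'.1 (class_two_mono hDW hcl') d hd
      have h12 : m * d * m⁻¹ * x = x * (m * d * m⁻¹) := by
        calc m * d * m⁻¹ * x = m * (d * (m⁻¹ * x * m)) * m⁻¹ := by group
          _ = m * ((m⁻¹ * x * m) * d) * m⁻¹ := by rw [h11]
          _ = x * (m * d * m⁻¹) := by group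
      have h13 : m * d * m⁻¹ ∈ W := hWn.conj_mem d (hDW hd) m
      have h14 : c * r * n * d * (c * r * n)⁻¹ = m * d * m⁻¹ := by
        have h15 : c * (m * d * m⁻¹) = (m * d * m⁻¹) * c := ((mem_centralizer_iff.mp hc) _ h13).symm
        calc c * r * n * d * (c * r * n)⁻¹ = c * (m * d * m⁻¹) * c⁻¹ := by rw [hmdef]; group
          _ = m * d * m⁻¹ := by rw [h15]; group
      rw [h14]
      exact h12
    intro w hw
    have := hle hw
    rw [mem_centralizer_singleton_iff] at this
    exact this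
  have : D = W := le_antisymm hDW hWD
  rw [this]
  exact hWn

end Cfsg.Agent.Lib.DStarThm
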