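import Cfsg.Agent.Lib.StructConst
import Cfsg.Agent.Lib.DefectZero

/-!
# Structure constants when there is no character of `p`-defect zero (helper79)
-/

set_option autoImplicit false
set_option linter.all false

namespace Cfsg.Agent.Lib.DefectZeroCount

open Cfsg Cfsg.Agent.Lib.DefectZero Cfsg.Agent.Lib.StructConst Cfsg.Agent.Lib.CharBasic
open scoped ComplexConjugate Pointwise

universe u

variable {G : Type u} [Group G]

/-- Without characters of `p`-defect zero, the number of pairs `(a, b)` with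
`t ^ a * (t ^ b)⁻¹ = z` is divisible by `p`, for all `t` and `z`. -/
theorem dvd_card_pairs [Finite G] (p : ℕ) [Fact p.Prime]
    (hno : ¬ ∃ χ : IrrCharacter G,
      (charDegree (χ : G → ℂ)).factorization p = (Nat.card G).factorization p) (t z : G) :
    p ∣ Nat.card {x : G × G // x.1 * t * x.1⁻¹ * (x.2 * t * x.2⁻¹)⁻¹ = z} := by
  classical
  have := Fintype.ofFinite G
  have hp : p.Prime := Fact.out
  have hcard : (Nat.card G : ℂ) ≠ 0 := by exact_mod_cast Nat.card_pos.ne'
  have h1 := sum_sum_conj (fun g : G => if g = z then (1 : ℂ) else 0) t t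
  have h2 : ∑ a : G, ∑ b : G, (if a * t * a⁻¹ * (b * t * b⁻¹)⁻¹ = z then (1 : ℂ) else 0) =
      Nat.card {x : G × G // x.1 * t * x.1⁻¹ * (x.2 * t * x.2⁻¹)⁻¹ = z} := by
    rw [← Finset.sum_product', Finset.univ_product_univ, Nat.card_eq_fintype_card, Fintype.card_subtype,
      Finset.sum_boole]
  have h3 : ∀ χ : IrrCharacter G, classInner (fun g : G => if g = z then (1 : ℂ) else 0) (χ : G → ℂ) =
      (Nat.card G : ℂ)⁻¹ * conj ((χ : G → ℂ) z) := by
    intro χ
    rw [classInner_def]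
    congr 1
    rw [Finset.sum_eq_single z]
    · rw [if_pos rfl, one_mul]
    · intro b _ hb
      rw [if_neg hb, zero_mul]
    · intro h
      exact absurd (Finset.mem_univ z) h
  have h4 : ∀ χ : IrrCharacter G, ∃ m : ℕ, (Nat.card G : ℂ) = (p * m : ℕ) * (χ : G → ℂ) 1 := by
    intro χ
    have h5 := charDegree_dvd χ.2
    obtain ⟨k, hk⟩ := h5
    have h6 : p ∣ k := by
      by_contra hnd
      apply hno
      refine ⟨χ, ?_⟩
      rw [hk, Nat.factorization_mul (charDegree_pos χ.2).ne' (by rintro rfl; simp at hnd),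
        Finsupp.add_apply, Nat.factorization_eq_zero_of_not_dvd hnd, add_zero]
    obtain ⟨m, rfl⟩ := h6
    refine ⟨m, ?_⟩
    rw [← charDegree_eq χ.2.isCharacter]
    rw [hk]
    push_cast
    ring
  choose m hm using h4
  have h5 : ((Nat.card {x : G × G // x.1 * t * x.1⁻¹ * (x.2 * t * x.2⁻¹)⁻¹ = z} : ℕ) : ℂ) =
      (p : ℂ) * ∑ χ : IrrCharacter G, (m χ : ℂ) * conj ((χ : G → ℂ) z) * (χ : G → ℂ) t *
        conj ((χ : G → ℂ) t) := by
    rw [← h2, h1, Finset.mul_sum, Finset.mul_sum]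
    refine Finset.sum_congr rfl fun χ _ => ?_
    rw [h3]
    have h6 := hm χ
    have h7 := χ.2.one_ne_zero
    have h8 : (p : ℂ) * m χ = (Nat.card G : ℂ) / (χ : G → ℂ) 1 := by
      rw [h6]
      push_cast
      field_simp
    calc (Nat.card G : ℂ) ^ 2 * ((Nat.card G : ℂ)⁻¹ * conj ((χ : G → ℂ) z) * (χ : G → ℂ) t *
          conj ((χ : G → ℂ) t) / (χ : G → ℂ) 1)
        = ((Nat.card G : ℂ) / (χ : G → ℂ) 1) * (conj ((χ : G → ℂ) z) * (χ : G → ℂ) t *
          conj ((χ : G → ℂ) t)) := by field_simp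
      _ = _ := by rw [← h8]; ring
  refine dvd_of_eq_mul_isIntegral hp.ne_zero ?_ h5
  refine IsIntegral.sum _ fun χ _ => ?_
  have hi : ∀ g : G, IsIntegral ℤ ((χ : G → ℂ) g) := fun g => isIntegral_value χ.2.isCharacter g
  have hc : ∀ g : G, IsIntegral ℤ (conj ((χ : G → ℂ) g)) := fun g =>
    (hi g).map (starRingEnd ℂ).toIntAlgHom
  have hn : IsIntegral ℤ ((m χ : ℕ) : ℂ) := by
    have := isIntegral_algebraMap (R := ℤ) (A := ℂ) (x := (m χ : ℤ))
    simpa using this
  exact ((hn.mul (hc z)).mul (hi t)).mul (hc t)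

end Cfsg.Agent.Lib.DefectZeroCount
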