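import Mathlib.GroupTheory.Perm.Basic
import Mathlib.GroupTheory.Index
import Mathlib.GroupTheory.GroupAction.Quotient
import Mathlib.Data.ZMod.Basic
import Mathlib.RingTheory.IntegralDomain
import Mathlib.Tactic
import Cfsg.Agent.Lib.Sharply2
import Cfsg.Agent.Lib.ZassHalf

/-! Transitive permutation groups of degree 18 with point stabilizer inside `AGL(1,17)`. -/

set_option autoImplicit false

namespace Cfsg.Agent.Lib.Deg18

open Equiv

instance instFactPrime17 : Fact (Nat.Prime 17) := ⟨by norm_num⟩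

/-- the projective line over `F_17` -/
abbrev X := Option (ZMod 17)

structure Good (H : Subgroup (Perm X)) : Prop where
  tau : ∃ t ∈ H, t none = none ∧ ∀ x : ZMod 17, t (some x) = some (x + 1)
  trans : ∀ x y : X, ∃ h ∈ H, h x = y
  stab : ∀ h ∈ H, h none = none → ∃ a b : ZMod 17, ∀ x : ZMod 17, h (some x) = some (a * x + b)

lemma pinv_apply {α : Type*} (g : Perm α) (x y : α) : g⁻¹ x = y ↔ x = g y := Equiv.Perm.inv_eq_iff_eq

lemma inv_app {α : Type*} (g : Perm α) (x : α) : g⁻¹ (g x) = x := Equiv.symm_apply_apply g x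
lemma app_inv {α : Type*} (g : Perm α) (x : α) : g (g⁻¹ x) = x := Equiv.apply_symm_apply g x

variable {H : Subgroup (Perm X)}

lemma aff_ne_zero {h : Perm X} {a b : ZMod 17} (hh : ∀ x : ZMod 17, h (some x) = some (a * x + b)) : a ≠ 0 := by
  rintro rfl
  have h0 := hh 0
  have h1 := hh 1
  simp only [zero_mul, zero_add] at h0 h1
  have := h.injective (h0.trans h1.symm)
  simp at this

lemma aff_eq_one {h : Perm X} (h0 : h none = none) (hh : ∀ x : ZMod 17, h (some x) = some (1 * x + 0)) : h = 1 := by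
  ext1 x
  cases x with
  | none => exact h0
  | some x => rw [hh x]; simp

/-- an element fixing three points is trivial -/
theorem Good.three (hG : Good H) {h : Perm X} (hh : h ∈ H) {p q r : X} (hpq : p ≠ q) (hpr : p ≠ r) (hqr : q ≠ r)
    (h1 : h p = p) (h2 : h q = q) (h3 : h r = r) : h = 1 := by
  obtain ⟨g, hg, hgp⟩ := hG.trans p none
  have hh' : g * h * g⁻¹ ∈ H := H.mul_mem (H.mul_mem hg hh) (H.inv_mem hg)
  have hn : (g * h * g⁻¹) none = none := by
    simp only [Perm.mul_apply]
    have : g⁻¹ none = p := by rw [pinv_apply]; exact hgp.symm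
    rw [this, h1, hgp]
  obtain ⟨a, b, hab⟩ := hG.stab _ hh' hn
  have hq : g q ≠ none := fun h => hpq (g.injective (hgp.trans h.symm))
  have hr : g r ≠ none := fun h => hpr (g.injective (hgp.trans h.symm))
  obtain ⟨x, hx⟩ := Option.ne_none_iff_exists'.mp hq
  obtain ⟨y, hy⟩ := Option.ne_none_iff_exists'.mp hr
  have hxy : x ≠ y := by
    rintro rfl
    exact hqr (g.injective (hx.trans hy.symm))
  have e1 : (g * h * g⁻¹) (some x) = some x := by
    simp only [Perm.mul_apply]
    have : g⁻¹ (some x) = q := by rw [pinv_apply]; exact hx.symm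
    rw [this, h2, hx]
  have e2 : (g * h * g⁻¹) (some y) = some y := by
    simp only [Perm.mul_apply]
    have : g⁻¹ (some y) = r := by rw [pinv_apply]; exact hy.symm
    rw [this, h3, hy]
  rw [hab] at e1 e2
  have e1' : a * x + b = x := Option.some_injective _ e1
  have e2' : a * y + b = y := Option.some_injective _ e2
  have ha : a = 1 := by
    have : (a - 1) * (x - y) = 0 := by linear_combination e1' - e2'
    rcases mul_eq_zero.mp this with h | h
    · exact sub_eq_zero.mp h
    · exact absurd (sub_eq_zero.mp h) hxy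
  have hb : b = 0 := by rw [ha] at e1'; linear_combination e1'
  rw [ha, hb] at hab
  have h4 : g * h * g⁻¹ = 1 := aff_eq_one hn hab
  have : h = g⁻¹ * (g * h * g⁻¹) * g := by group
  rw [this, h4]; group

/-- powers of `tau` -/
lemma Good.tau_pow (hG : Good H) (b : ZMod 17) :
    ∃ t ∈ H, t none = none ∧ ∀ x : ZMod 17, t (some x) = some (x + b) := by
  obtain ⟨t, ht, h0, h1⟩ := hG.tau
  have key : ∀ n : ℕ, (t ^ n) none = none ∧ ∀ x : ZMod 17, (t ^ n) (some x) = some (x + n) := by
    intro n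
    induction n with
    | zero => simp
    | succ n ih =>
      refine ⟨?_, fun x => ?_⟩
      · rw [pow_succ', Perm.mul_apply, ih.1, h0]
      · rw [pow_succ', Perm.mul_apply, ih.2, h1]
        push_cast
        rw [add_assoc]
  refine ⟨t ^ b.val, H.pow_mem ht _, (key _).1, fun x => ?_⟩
  rw [(key _).2, ZMod.natCast_zmod_val]

/-- two-transitivity -/
theorem Good.two (hG : Good H) {p q p' q' : X} (hpq : p ≠ q) (hpq' : p' ≠ q') : ∃ h ∈ H, h p = p' ∧ h q = q' := by
  -- reduce to (none, some 0)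
  have key : ∀ {p q : X}, p ≠ q → ∃ h ∈ H, h p = none ∧ h q = some 0 := by
    intro p q hpq
    obtain ⟨g, hg, hgp⟩ := hG.trans p none
    have hq : g q ≠ none := fun h => hpq (g.injective (hgp.trans h.symm))
    obtain ⟨x, hx⟩ := Option.ne_none_iff_exists'.mp hq
    obtain ⟨t, ht, h0, h1⟩ := hG.tau_pow (-x)
    refine ⟨t * g, H.mul_mem ht hg, ?_, ?_⟩
    · rw [Perm.mul_apply, hgp, h0]
    · rw [Perm.mul_apply, hx, h1]; simp
  obtain ⟨g, hg, g1, g2⟩ := key hpq
  obtain ⟨g', hg', g1', g2'⟩ := key hpq'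
  refine ⟨g'⁻¹ * g, H.mul_mem (H.inv_mem hg') hg, ?_, ?_⟩
  · rw [Perm.mul_apply, g1, pinv_apply]; exact g1'.symm
  · rw [Perm.mul_apply, g2, pinv_apply]; exact g2'.symm

/-- the stabilizer of `none` and `some 0` -/
def T (H : Subgroup (Perm X)) : Subgroup (Perm X) where
  carrier := {h | h ∈ H ∧ h none = none ∧ h (some 0) = some 0}
  one_mem' := ⟨H.one_mem, rfl, rfl⟩
  mul_mem' := by
    rintro a b ⟨ha, ha1, ha2⟩ ⟨hb, hb1, hb2⟩
    exact ⟨H.mul_mem ha hb, by rw [Perm.mul_apply, hb1, ha1], by rw [Perm.mul_apply, hb2, ha2]⟩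
  inv_mem' := by
    rintro a ⟨ha, ha1, ha2⟩
    exact ⟨H.inv_mem ha, by rw [pinv_apply]; exact ha1.symm, by rw [pinv_apply]; exact ha2.symm⟩

lemma mem_T {h : Perm X} : h ∈ T H ↔ h ∈ H ∧ h none = none ∧ h (some 0) = some 0 := Iff.rfl

/-- multiplier of an element of `T` -/
def mult (h : Perm X) : ZMod 17 := (h (some 1)).getD 0

lemma Good.T_apply (hG : Good H) {h : Perm X} (hh : h ∈ T H) (x : ZMod 17) : h (some x) = some (mult h * x) := by
  obtain ⟨h1, h2, h3⟩ := hh
  obtain ⟨a, b, hab⟩ := hG.stab h h1 h2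
  have hb : b = 0 := by
    have := hab 0
    rw [h3] at this
    have h4 := Option.some_injective _ this
    simpa using h4.symm
  rw [hb] at hab
  have ha : mult h = a := by
    unfold mult
    rw [hab]; simp
  rw [hab, ha, add_zero]

lemma Good.mult_ne_zero (hG : Good H) {h : Perm X} (hh : h ∈ T H) : mult h ≠ 0 := by
  intro h0
  have h1 := hG.T_apply hh 1
  rw [h0, zero_mul] at h1
  have := h.injective (h1.trans hh.2.2.symm)
  simp at this

/-- the embedding of `T` in the units -/
noncomputable def Good.multHom (hG : Good H) : T H →* (ZMod 17)ˣ where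
  toFun h := Units.mk0 (mult h.1) (hG.mult_ne_zero h.2)
  map_one' := by
    apply Units.ext
    show mult (1 : Perm X) = 1
    rfl
  map_mul' h h' := by
    apply Units.ext
    show mult (h.1 * h'.1) = mult h.1 * mult h'.1
    have h1 : (h.1 * h'.1) (some 1) = some (mult h.1 * mult h'.1) := by
      rw [Perm.mul_apply, hG.T_apply h'.2, hG.T_apply h.2, mul_one]
    unfold mult at *
    rw [h1]; rfl

lemma Good.eq_of_mult (hG : Good H) {h h' : Perm X} (hh : h ∈ T H) (hh' : h' ∈ T H) (he : mult h = mult h') : h = h' := by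
  ext1 x
  cases x with
  | none => rw [hh.2.1, hh'.2.1]
  | some x => rw [hG.T_apply hh, hG.T_apply hh', he]

lemma Good.multHom_injective (hG : Good H) : Function.Injective hG.multHom := by
  intro h h' he
  have : mult h.1 = mult h'.1 := congrArg Units.val he
  exact Subtype.ext (hG.eq_of_mult h.2 h'.2 this)

lemma Good.card_T_dvd (hG : Good H) : Nat.card (T H) ∣ 16 := by
  have h1 := Subgroup.card_dvd_of_injective hG.multHom hG.multHom_injective
  have h2 : Nat.card (ZMod 17)ˣ = 16 := by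
    rw [Nat.card_eq_fintype_card, ZMod.card_units_eq_totient]
    decide
  rwa [h2] at h1

lemma card_X : Nat.card X = 18 := by
  rw [Nat.card_eq_fintype_card]
  rfl

lemma T_eq_map (H : Subgroup (Perm X)) :
    T H = (MulAction.stabilizer H (none : X) ⊓ MulAction.stabilizer H (some 0 : X)).map H.subtype := by
  ext h
  rw [mem_T, Subgroup.mem_map]
  constructor
  · rintro ⟨h1, h2, h3⟩
    exact ⟨⟨h, h1⟩, ⟨h2, h3⟩, rfl⟩
  · rintro ⟨⟨h', h1⟩, ⟨h2, h3⟩, rfl⟩
    exact ⟨h1, h2, h3⟩

lemma card_T_eq (H : Subgroup (Perm X)) :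
    Nat.card (T H) = Nat.card ↥(MulAction.stabilizer H (none : X) ⊓ MulAction.stabilizer H (some 0 : X)) := by
  rw [T_eq_map, Subgroup.card_map_of_injective H.subtype_injective]

theorem Good.multiplyPretransitive (hG : Good H) : MulAction.IsMultiplyPretransitive H X 2 := by
  rw [MulAction.is_two_pretransitive_iff]
  intro a b c d hab hcd
  obtain ⟨h, hh, h1, h2⟩ := hG.two hab hcd
  exact ⟨⟨h, hh⟩, h1, h2⟩

theorem Good.fix3 (hG : Good H) : ZassBasic.Fix3 H X := by
  intro g a b c hab hbc hac ha hb hc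
  exact Subtype.ext (hG.three g.2 hab hac hbc ha hb hc)

theorem Good.card_T_ne_one (hG : Good H) : Nat.card (T H) ≠ 1 := by
  intro h1
  have hs : ∀ g : H, ∀ a b : X, a ≠ b → g • a = a → g • b = b → g = 1 := by
    intro g a b hab ha hb
    obtain ⟨k, hk, hka, hkb⟩ := hG.two hab (show (none : X) ≠ some 0 by simp)
    have hmem : k * g.1 * k⁻¹ ∈ T H := by
      refine ⟨H.mul_mem (H.mul_mem hk g.2) (H.inv_mem hk), ?_, ?_⟩
      · have e : k⁻¹ none = a := by rw [pinv_apply]; exact hka.symm
        rw [Perm.mul_apply, Perm.mul_apply, e, show g.1 a = a from ha, hka]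
      · have e : k⁻¹ (some 0) = b := by rw [pinv_apply]; exact hkb.symm
        rw [Perm.mul_apply, Perm.mul_apply, e, show g.1 b = b from hb, hkb]
    have hbot : T H = ⊥ := Subgroup.card_eq_one.mp h1
    rw [hbot, Subgroup.mem_bot] at hmem
    apply Subtype.ext
    have : g.1 = k⁻¹ * (k * g.1 * k⁻¹) * k := by group
    rw [this, hmem]
    simp
  obtain ⟨p, hp, N, -, -, hcard, hpow, -⟩ := Sharply2.main hG.multiplyPretransitive hs
    (by rw [card_X]; norm_num)
  have hpF : Fact p.Prime := ⟨hp⟩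
  have hN : IsPGroup p N := fun x => ⟨1, Subtype.ext (by simpa using hpow x x.2)⟩
  obtain ⟨n, hn⟩ := IsPGroup.iff_card.mp hN
  rw [hcard, card_X] at hn
  have h2 : p = 2 := by
    have : 2 ∣ p ^ n := hn ▸ (by norm_num)
    exact ((Nat.prime_dvd_prime_iff_eq Nat.prime_two hp).mp (Nat.prime_two.dvd_of_dvd_pow this)).symm
  have h3 : p = 3 := by
    have : 3 ∣ p ^ n := hn ▸ (by norm_num)
    exact ((Nat.prime_dvd_prime_iff_eq Nat.prime_three hp).mp (Nat.prime_three.dvd_of_dvd_pow this)).symm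
  omega

theorem Good.card_T_cases (hG : Good H) : Nat.card (T H) = 16 ∨
    (Even (Nat.card (T H)) ∧ 2 * Nat.card (T H) ≤ 16) := by
  have h1 := hG.card_T_dvd
  have h2 := hG.card_T_ne_one
  have h3 : Nat.card (T H) ∈ Nat.divisors 16 := Nat.mem_divisors.mpr ⟨h1, by norm_num⟩
  have h4 : Nat.divisors 16 = {1, 2, 4, 8, 16} := by decide
  rw [h4] at h3
  simp only [Finset.mem_insert, Finset.mem_singleton] at h3
  rcases h3 with h | h | h | h | h
  · exact absurd h h2
  · right; rw [h]; exact ⟨by decide, by norm_num⟩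
  · right; rw [h]; exact ⟨by decide, by norm_num⟩
  · right; rw [h]; exact ⟨by decide, by norm_num⟩
  · left; exact h

/-- the first case: `PSL(2, 17)` -/
theorem Good.psl (hG : Good H) (h : Even (Nat.card (T H)) ∧ 2 * Nat.card (T H) ≤ 16) :
    ∃ (E : Type) (_ : Field E) (_ : Fintype E), Fintype.card E = 17 ∧
      Nonempty (H ≃* Matrix.ProjectiveSpecialLinearGroup (Fin 2) E) := by
  obtain ⟨E, hE, hEf, -, hc, hiso⟩ := ZassHalf.psl_of_half hG.multiplyPretransitive hG.fix3
    (show (none : X) ≠ some 0 by simp) (by rw [← card_T_eq]; exact h.1)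
    (by rw [← card_T_eq, card_X]; exact h.2)
  refine ⟨E, hE, hEf, ?_, hiso⟩
  rw [card_X] at hc
  omega

end Cfsg.Agent.Lib.Deg18
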