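import Mathlib.Topology.Compactification.OnePoint.ProjectiveLine
import Mathlib.LinearAlgebra.Matrix.GeneralLinearGroup.Projective
import Mathlib.GroupTheory.QuotientGroup.Basic

/-!
# Recognising `PGL(2,K)` from its action on the projective line (helper61)
-/

set_option autoImplicit false

namespace Cfsg.Agent.Lib.PGLTwoRec

open Matrix OnePoint

variable (K : Type*) [Field K] [DecidableEq K]

/-- the action of `GL(2,K)` on the projective line as a homomorphism -/
noncomputable def act : GL (Fin 2) K →* Equiv.Perm (OnePoint K) :=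
  MulAction.toPermHom (GL (Fin 2) K) (OnePoint K)

variable {K}

theorem act_infty (g : GL (Fin 2) K) :
    act K g ∞ = if g 1 0 = 0 then (∞ : OnePoint K) else ((g 0 0 / g 1 0 : K) : OnePoint K) :=
  smul_infty_eq_ite g

theorem act_coe (g : GL (Fin 2) K) (k : K) :
    act K g (k : OnePoint K) = if g 1 0 * k + g 1 1 = 0 then (∞ : OnePoint K) else
      (((g 0 0 * k + g 0 1) / (g 1 0 * k + g 1 1) : K) : OnePoint K) :=
  smul_some_eq_ite (g := g)

omit [DecidableEq K] in
theorem det_ne (g : GL (Fin 2) K) : g 0 0 * g 1 1 - g 0 1 * g 1 0 ≠ 0 := by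
  have := g.det_ne_zero
  rwa [Matrix.det_fin_two] at this

theorem ker_act : (act K).ker = Subgroup.center (GL (Fin 2) K) := by
  ext g
  rw [MonoidHom.mem_ker, GeneralLinearGroup.mem_center_iff_val_mem_range_scalar]
  have hdet := det_ne g
  constructor
  · intro h
    have h1 : act K g ∞ = ∞ := by rw [h]; rfl
    have h2 : act K g ((0 : K) : OnePoint K) = ((0 : K) : OnePoint K) := by rw [h]; rfl
    have h3 : act K g ((1 : K) : OnePoint K) = ((1 : K) : OnePoint K) := by rw [h]; rfl
    rw [act_infty] at h1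
    have hc : g 1 0 = 0 := by
      by_contra hne
      rw [if_neg hne] at h1
      exact OnePoint.coe_ne_infty _ h1
    rw [act_coe, hc, zero_mul, zero_add, mul_zero, zero_add] at h2
    have hd : g 1 1 ≠ 0 := by
      intro h0
      rw [hc, h0] at hdet
      simp at hdet
    rw [if_neg hd, OnePoint.coe_eq_coe, div_eq_zero_iff] at h2
    have hb : g 0 1 = 0 := h2.resolve_right hd
    rw [act_coe, hc, hb, zero_mul, zero_add, mul_one, add_zero, if_neg hd, OnePoint.coe_eq_coe,
      div_eq_one_iff_eq hd] at h3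
    refine ⟨g 0 0, ?_⟩
    ext i j
    fin_cases i <;> fin_cases j <;> simp [hb, hc, h3]
  · rintro ⟨r, h⟩
    have e00 : g 0 0 = r := by rw [← h]; simp
    have e01 : g 0 1 = 0 := by rw [← h]; simp
    have e10 : g 1 0 = 0 := by rw [← h]; simp
    have e11 : g 1 1 = r := by rw [← h]; simp
    have hr0 : r ≠ 0 := by
      rintro rfl
      rw [e00, e01, e11] at hdet
      simp at hdet
    ext x
    induction x using OnePoint.rec with
    | infty =>
      rw [act_infty, if_pos e10]; rfl
    | coe k =>
      rw [act_coe, e10, e11, e00, e01, zero_mul, zero_add, if_neg hr0, add_zero,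
        mul_div_cancel_left₀ _ hr0]
      rfl

/-- Recognition: a faithful action on the projective line with the same permutation group. -/
theorem recognize {G : Type*} [Group G] (ρ : G →* Equiv.Perm (OnePoint K))
    (hinj : Function.Injective ρ) (hrange : ρ.range = (act K).range) :
    Nonempty (G ≃* (GL (Fin 2) K ⧸ Subgroup.center (GL (Fin 2) K))) := by
  have e1 : G ≃* ρ.range := MonoidHom.ofInjective hinj
  have e2 : ρ.range ≃* (act K).range := MulEquiv.subgroupCongr hrange
  have e3 : GL (Fin 2) K ⧸ (act K).ker ≃* (act K).range := QuotientGroup.quotientKerEquivRange (act K)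
  have e4 : GL (Fin 2) K ⧸ (act K).ker ≃* GL (Fin 2) K ⧸ Subgroup.center (GL (Fin 2) K) :=
    QuotientGroup.quotientMulEquivOfEq ker_act
  exact ⟨((e1.trans e2).trans e3.symm).trans e4⟩

/-- affine matrix -/
def af (a b : K) (ha : a ≠ 0) : GL (Fin 2) K :=
  GeneralLinearGroup.mkOfDetNeZero !![a, b; 0, 1] (by simpa [Matrix.det_fin_two] using ha)

/-- inversion -/
def iv : GL (Fin 2) K :=
  GeneralLinearGroup.mkOfDetNeZero !![0, 1; 1, 0] (by simp [Matrix.det_fin_two])

theorem act_af_infty (a b : K) (ha : a ≠ 0) : act K (af a b ha) ∞ = ∞ := by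
  rw [act_infty]; simp [af, GeneralLinearGroup.mkOfDetNeZero]

theorem act_af_coe (a b : K) (ha : a ≠ 0) (k : K) :
    act K (af a b ha) (k : OnePoint K) = ((a * k + b : K) : OnePoint K) := by
  rw [act_coe]; simp [af, GeneralLinearGroup.mkOfDetNeZero]

theorem act_iv_infty : act K iv ∞ = ((0 : K) : OnePoint K) := by
  rw [act_infty]; simp [iv, GeneralLinearGroup.mkOfDetNeZero]

theorem act_iv_zero : act K iv ((0 : K) : OnePoint K) = ∞ := by
  rw [act_coe]; simp [iv, GeneralLinearGroup.mkOfDetNeZero]

theorem act_iv_coe (k : K) (hk : k ≠ 0) : act K iv (k : OnePoint K) = ((k⁻¹ : K) : OnePoint K) := by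
  rw [act_coe]
  simp [iv, GeneralLinearGroup.mkOfDetNeZero, hk]

end Cfsg.Agent.Lib.PGLTwoRec
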