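import Cfsg.Agent.Lib.Deg18
import Cfsg.Agent.Lib.MobCard
import Cfsg.Agent.Lib.PGLTwoRec

/-! Transitive permutation groups of degree 18, part 2: the group `PGL(2,17)`. -/

set_option autoImplicit false

namespace Cfsg.Agent.Lib.Deg18

open Equiv

variable {H : Subgroup (Perm X)}

theorem Good.exists_mul (hG : Good H) (hT : Nat.card (T H) = 16) (c : ZMod 17) (hc : c ≠ 0) :
    ∃ t ∈ T H, ∀ x : ZMod 17, t (some x) = some (c * x) := by
  have h1 : Nat.card (ZMod 17)ˣ = 16 := by
    rw [Nat.card_eq_fintype_card, ZMod.card_units_eq_totient]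
    decide
  have h2 : Function.Bijective hG.multHom :=
    (Nat.bijective_iff_injective_and_card _).mpr ⟨hG.multHom_injective, by rw [hT, h1]⟩
  obtain ⟨t, ht⟩ := h2.2 (Units.mk0 c hc)
  refine ⟨t.1, t.2, fun x => ?_⟩
  rw [hG.T_apply t.2]
  congr 2
  exact congrArg Units.val ht

/-- the element swapping `∞` and `0` and fixing `1`. -/
theorem Good.exists_w (hG : Good H) (hT : Nat.card (T H) = 16) :
    ∃ w ∈ H, w none = some 0 ∧ w (some 0) = none ∧ w (some 1) = some 1 := by
  obtain ⟨h, hh, h1, h2⟩ := hG.two (show (none : X) ≠ some 0 by simp) (show (some 0 : X) ≠ none by simp)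
  have h3 : h (some 1) ≠ none := fun h4 => by
    have := h.injective (h4.trans h2.symm)
    simp at this
  obtain ⟨y, hy⟩ := Option.ne_none_iff_exists'.mp h3
  have hy0 : y ≠ 0 := by
    rintro rfl
    have := h.injective (hy.trans h1.symm)
    simp at this
  obtain ⟨t, ht, htx⟩ := hG.exists_mul hT y⁻¹ (inv_ne_zero hy0)
  refine ⟨t * h, H.mul_mem ht.1 hh, ?_, ?_, ?_⟩
  · rw [Perm.mul_apply, h1, htx, mul_zero]
  · rw [Perm.mul_apply, h2, ht.2.1]
  · rw [Perm.mul_apply, hy, htx, inv_mul_cancel₀ hy0]

/-- the function -/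
theorem Good.w_inv (hG : Good H) (hT : Nat.card (T H) = 16) {w : Perm X} (hw : w ∈ H)
    (w1 : w none = some 0) (w2 : w (some 0) = none) (w3 : w (some 1) = some 1) :
    ∀ x : ZMod 17, x ≠ 0 → w (some x) = some x⁻¹ := by
  -- the function `f`
  have hex : ∀ x : ZMod 17, x ≠ 0 → ∃ y : ZMod 17, y ≠ 0 ∧ w (some x) = some y := by
    intro x hx
    have h3 : w (some x) ≠ none := fun h4 => by
      have := w.injective (h4.trans w2.symm)
      simp at this
      exact hx this
    obtain ⟨y, hy⟩ := Option.ne_none_iff_exists'.mp h3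
    refine ⟨y, ?_, hy⟩
    rintro rfl
    have := w.injective (hy.trans w1.symm)
    simp at this
  choose! f hf0 hf using hex
  have hf1 : f 1 = 1 := by
    have := hf 1 one_ne_zero
    rw [w3] at this
    exact (Option.some_injective _ this).symm
  have hinj : ∀ x y : ZMod 17, x ≠ 0 → y ≠ 0 → f x = f y → x = y := by
    intro x y hx hy h
    have h1 := hf x hx
    rw [h, ← hf y hy] at h1
    exact Option.some_injective _ (w.injective h1)
  have hww : w * w = 1 := by
    have hmem : w * w ∈ T H := ⟨H.mul_mem hw hw, by rw [Perm.mul_apply, w1, w2],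
      by rw [Perm.mul_apply, w2, w1]⟩
    have h1 : (1 : Perm X) ∈ T H := (T H).one_mem
    apply hG.eq_of_mult hmem h1
    unfold mult
    rw [Perm.mul_apply, w3, w3]
    rfl
  have hmul : ∀ c x : ZMod 17, c ≠ 0 → x ≠ 0 → f (c * x) = f c * f x := by
    intro c x hc hx
    obtain ⟨t, ht, htx⟩ := hG.exists_mul hT c hc
    have hwi : w⁻¹ = w := inv_eq_of_mul_eq_one_left hww
    have hmem : w * t * w ∈ T H := by
      refine ⟨H.mul_mem (H.mul_mem hw ht.1) hw, ?_, ?_⟩
      · rw [Perm.mul_apply, Perm.mul_apply, w1, htx, mul_zero, w2]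
      · rw [Perm.mul_apply, Perm.mul_apply, w2, ht.2.1, w1]
    have h1 := hG.T_apply hmem
    have h2 := h1 1
    rw [Perm.mul_apply, Perm.mul_apply, w3, htx, mul_one, hf c hc, mul_one] at h2
    have h2' := Option.some_injective _ h2
    have h3 := h1 (f x)
    rw [← h2', Perm.mul_apply, Perm.mul_apply] at h3
    have h4 : w (some (f x)) = some x := by
      rw [← hf x hx, ← Perm.mul_apply, hww]; rfl
    rw [h4, htx, hf _ (mul_ne_zero hc hx)] at h3
    exact Option.some_injective _ h3
  have hfm1 : f (-1) = -1 := by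
    have h1 : f (-1) * f (-1) = 1 := by
      rw [← hmul _ _ (by decide) (by decide)]
      norm_num [hf1]
    rcases mul_self_eq_one_iff.mp h1 with h | h
    · exact absurd (hinj (-1) 1 (by decide) one_ne_zero (h.trans hf1.symm)) (by decide)
    · exact h
  obtain ⟨u, hu, hu0, hux⟩ := hG.tau_pow (-1)
  obtain ⟨v, hv, hv0, hvx⟩ := hG.tau_pow 1
  have hrel : ∃ c : ZMod 17, ∀ y : ZMod 17, y ≠ 0 → y + 1 ≠ 0 → f (f y + 1) = 1 + c * f (y + 1) := by
    have hmem : u * w * v * w * u * w ∈ T H := by
      refine ⟨H.mul_mem (H.mul_mem (H.mul_mem (H.mul_mem (H.mul_mem hu hw) hv) hw) hu) hw, ?_, ?_⟩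
      · simp only [Perm.mul_apply]
        rw [w1, hux, zero_add, hf (-1) (by decide), hfm1, hvx]
        rw [show (-1 : ZMod 17) + 1 = 0 by decide, w2, hu0]
      · simp only [Perm.mul_apply]
        rw [w2, hu0, w1, hvx, zero_add, w3, hux]
        rfl
    refine ⟨mult (u * w * v * w * u * w), ?_⟩
    intro y hy hy1
    have h1 := hG.T_apply hmem (f (y + 1))
    simp only [Perm.mul_apply] at h1
    have h4 : w (some (f (y + 1))) = some (y + 1) := by
      rw [← hf _ hy1, ← Perm.mul_apply, hww]; rfl
    have h5 : f y + 1 ≠ 0 := by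
      intro h
      have h6 : f y = f (-1) := by rw [hfm1]; linear_combination h
      have h7 := hinj y (-1) hy (by decide) h6
      apply hy1
      rw [h7]; decide
    rw [h4, hux, show y + 1 + -1 = y by ring, hf y hy, hvx, hf _ h5, hux] at h1
    have h8 := Option.some_injective _ h1
    linear_combination h8
  obtain ⟨c, hc⟩ := hrel
  have h2 := hc 1 one_ne_zero (by decide)
  rw [hf1] at h2
  have hm2 := hc (-2) (by decide) (by decide)
  have e1 : f (-2) = - f 2 := by
    have := hmul (-1) 2 (by decide) (by decide)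
    rw [hfm1] at this
    rw [show (-2 : ZMod 17) = -1 * 2 by decide, this]
    ring
  have e2 : (-2 : ZMod 17) + 1 = -1 := by decide
  have e3 : (1 : ZMod 17) + 1 = 2 := by decide
  rw [e1, e2, hfm1] at hm2
  rw [e3] at h2
  have h9 : f 2 * f 9 = 1 := by
    rw [← hmul 2 9 (by decide) (by decide), show (2 : ZMod 17) * 9 = 1 by decide, hf1]
  have hf2 : f 2 = 9 := by
    have h10 : f (-f 2 + 1) = f 9 := by
      rw [hm2]
      have h11 : f 2 * (1 - c) = 1 := by linear_combination h2
      have h12 : f 2 ≠ 0 := hf0 2 (by decide)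
      apply mul_left_cancel₀ h12
      rw [h9]
      linear_combination h11
    have h13 : -f 2 + 1 ≠ 0 := by
      intro h
      have : f 2 = f 1 := by rw [hf1]; linear_combination -h
      exact absurd (hinj 2 1 (by decide) one_ne_zero this) (by decide)
    have h14 := hinj _ _ h13 (by decide) h10
    have : f 2 = 1 - 9 := by linear_combination -h14
    rw [this]; decide
  have hc1 : c = -1 := by
    rw [hf2] at h2
    have h15 : (9 : ZMod 17) * c = 9 - 1 := by linear_combination -h2
    have h16 : c = 2 * (9 * c) := by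
      rw [← mul_assoc, show (2 : ZMod 17) * 9 = 1 by decide, one_mul]
    rw [h16, h15]; decide
  have h3 := hc 2 (by decide) (by decide)
  have hf3 : f 3 = 6 := by
    rw [hf2, hc1, show (9 : ZMod 17) + 1 = 9 * 3 by decide, show (2 : ZMod 17) + 1 = 3 by decide,
      hmul 9 3 (by decide) (by decide)] at h3
    have h16 : f 9 = 2 := by
      rw [hf2] at h9
      have : f 9 = 2 * (9 * f 9) := by
        rw [← mul_assoc, show (2 : ZMod 17) * 9 = 1 by decide, one_mul]
      rw [this, h9]; decide
    rw [h16] at h3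
    have h17 : 3 * f 3 = 1 := by linear_combination h3
    have h18 : f 3 = 6 * (3 * f 3) := by
      rw [← mul_assoc, show (6 : ZMod 17) * 3 = 1 by decide, one_mul]
    rw [h18, h17, mul_one]
  have hpow : ∀ n : ℕ, f (3 ^ n) = 6 ^ n := by
    intro n
    induction n with
    | zero => simpa using hf1
    | succ n ih => rw [pow_succ, hmul _ _ (pow_ne_zero _ (by decide)) (by decide), ih, hf3, pow_succ]
  intro x hx
  rw [hf x hx]
  congr 1
  have hgen : ∀ x : ZMod 17, x ≠ 0 → ∃ n < 16, x = 3 ^ n := by decide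
  obtain ⟨n, -, rfl⟩ := hgen x hx
  rw [hpow]
  apply eq_inv_of_mul_eq_one_left
  rw [← mul_pow, show (6 : ZMod 17) * 3 = 1 by decide, one_pow]

theorem Good.card_eq (hG : Good H) : Nat.card H = 306 * Nat.card (T H) := by
  have h2 := hG.multiplyPretransitive
  have hne : (none : X) ≠ some 0 := by simp
  have htr : MulAction.IsPretransitive H X := ⟨fun x y => by
    obtain ⟨h, hh, hxy⟩ := hG.trans x y
    exact ⟨⟨h, hh⟩, hxy⟩⟩
  have h4 := MulAction.index_stabilizer_of_transitive H (none : X)
  have h5 := ZassBasic.card_stab h2 hne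
  have h6 : Nat.card {x : X // x ≠ none} = 17 := by
    rw [Nat.card_eq_fintype_card]
    decide
  have h7 := Subgroup.card_mul_index (MulAction.stabilizer H (none : X))
  rw [h4, h5, h6, ← card_T_eq, card_X] at h7
  rw [← h7]
  ring

/-- the natural homomorphism -/
def toOne (H : Subgroup (Perm X)) : H →* Perm (OnePoint (ZMod 17)) := H.subtype

theorem Good.pgl (hG : Good H) (hT : Nat.card (T H) = 16) :
    Nonempty (H ≃* (GL (Fin 2) (ZMod 17) ⧸ Subgroup.center (GL (Fin 2) (ZMod 17)))) := by
  apply PGLTwoRec.recognize (toOne H) H.subtype_injective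
  obtain ⟨w, hw, w1, w2, w3⟩ := hG.exists_w hT
  have w4 := hG.w_inv hT hw w1 w2 w3
  have hwr : (show Perm (OnePoint (ZMod 17)) from w) ∈ (PGLTwoRec.act (ZMod 17)).range := by
    refine ⟨PGLTwoRec.iv, ?_⟩
    ext1 x
    induction x using OnePoint.rec with
    | infty => exact PGLTwoRec.act_iv_infty.trans w1.symm
    | coe x =>
      by_cases hx : x = 0
      · subst hx
        exact PGLTwoRec.act_iv_zero.trans w2.symm
      · exact (PGLTwoRec.act_iv_coe x hx).trans (w4 x hx).symm
  have haff : ∀ h ∈ H, h none = none → (show Perm (OnePoint (ZMod 17)) from h) ∈ (PGLTwoRec.act (ZMod 17)).range := by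
    intro h hh h0
    obtain ⟨a, b, hab⟩ := hG.stab h hh h0
    refine ⟨PGLTwoRec.af a b (aff_ne_zero hab), ?_⟩
    ext1 x
    induction x using OnePoint.rec with
    | infty => exact (PGLTwoRec.act_af_infty a b _).trans h0.symm
    | coe x => exact (PGLTwoRec.act_af_coe a b _ x).trans (hab x).symm
  have hle : (toOne H).range ≤ (PGLTwoRec.act (ZMod 17)).range := by
    rintro _ ⟨⟨h, hh⟩, rfl⟩
    change (show Perm (OnePoint (ZMod 17)) from h) ∈ _
    by_cases h0 : h none = none
    · exact haff h hh h0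
    · obtain ⟨y, hy⟩ := Option.ne_none_iff_exists'.mp h0
      obtain ⟨u, hu, hu0, hux⟩ := hG.tau_pow (-y)
      have h1 : (w * u * h) none = none := by
        simp only [Perm.mul_apply]
        rw [hy, hux, show y + -y = 0 by ring, w2]
      have h2 := haff _ (H.mul_mem (H.mul_mem hw hu) hh) h1
      have h3 := haff u hu hu0
      have h4 : (show Perm (OnePoint (ZMod 17)) from h) =
          (show Perm (OnePoint (ZMod 17)) from u)⁻¹ * (show Perm (OnePoint (ZMod 17)) from w)⁻¹ *
            (show Perm (OnePoint (ZMod 17)) from (w * u * h)) := by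
        show h = u⁻¹ * w⁻¹ * (w * u * h)
        group
      rw [h4]
      exact mul_mem (mul_mem (inv_mem h3) (inv_mem hwr)) h2
  apply Subgroup.eq_of_le_of_card_ge hle
  have e1 : Nat.card (toOne H).range = 4896 := by
    rw [← Nat.card_congr (MonoidHom.ofInjective (f := toOne H) H.subtype_injective).toEquiv, hG.card_eq, hT]
  have e2 : Nat.card (PGLTwoRec.act (ZMod 17)).range = 4896 := by
    rw [← Nat.card_congr (QuotientGroup.quotientKerEquivRange (PGLTwoRec.act (ZMod 17))).toEquiv,
      Nat.card_congr (QuotientGroup.quotientMulEquivOfEq PGLTwoRec.ker_act).toEquiv]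
    exact (MobCount.card_G2 (F := ZMod 17) (ZMod.card 17)).trans (by norm_num)
  rw [e1, e2]

end Cfsg.Agent.Lib.Deg18
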