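import Cfsg.Agent.Lib.Deg18b

/-! Transitive permutation groups of degree 18, part 3: coordinates. -/

set_option autoImplicit false

namespace Cfsg.Agent.Lib.Deg18

open Equiv MulAction

variable {G Ω : Type*} [Group G] [Finite G] [MulAction G Ω] [Finite Ω]

omit [Finite G] [Finite Ω] in
theorem pow_period {x : G} {b : Ω} (h17 : x ^ 17 • b = b) (n : ℕ) : x ^ n • b = x ^ (n % 17) • b := by
  conv_lhs => rw [← Nat.mod_add_div n 17, pow_add, pow_mul, mul_smul]
  congr 1
  generalize n / 17 = m
  induction m with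
  | zero => simp
  | succ m ih => rw [pow_succ', mul_smul, ih, h17]

omit [Finite G] in
theorem period_of_move (hΩ : Nat.card Ω = 18) {a b : Ω} {x : G} (hxa : x • a = a)
    {m : ℕ} (hx : x ^ (17 ^ m) = 1) (hxb : x • b ≠ b) : x ^ 17 • b = b := by
  have hfin := Fintype.ofFinite Ω
  classical
  set d := Function.minimalPeriod (x • · : Ω → Ω) b with hd
  have hdvd : d ∣ 17 ^ m := by
    apply Function.IsPeriodicPt.minimalPeriod_dvd
    rw [Function.IsPeriodicPt, Function.IsFixedPt, smul_iterate, hx]
    exact one_smul G b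
  obtain ⟨k, hk, hdk⟩ := (Nat.dvd_prime_pow (by norm_num)).mp hdvd
  have hd1 : d ≠ 1 := by
    intro h1
    rw [hd, Function.minimalPeriod_eq_one_iff_isFixedPt] at h1
    exact hxb h1
  have hcard : Nat.card (orbit (Subgroup.zpowers x) b) = d := by
    rw [Nat.card_congr (orbitZPowersEquiv x b), Nat.card_zmod]
  have hle : Nat.card (orbit (Subgroup.zpowers x) b) ≤ 17 := by
    have h1 : orbit (Subgroup.zpowers x) b ⊆ {a}ᶜ := by
      rintro _ ⟨⟨y, hy⟩, rfl⟩ h
      obtain ⟨n, rfl⟩ := Subgroup.mem_zpowers_iff.mp hy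
      have h2 : x ^ n • a = a := by
        have h3 : x ∈ stabilizer G a := hxa
        exact (stabilizer G a).zpow_mem h3 n
      have h4 : x ^ n • b = a := h
      have h5 : b = a := smul_left_cancel _ (h4.trans h2.symm)
      rw [h5] at hxb
      exact hxb hxa
    have h2 := Set.ncard_le_ncard h1 (Set.toFinite _)
    rw [Set.ncard_compl, Set.ncard_singleton, hΩ] at h2
    exact h2
  have hd17 : d = 17 := by
    rw [hcard] at hle
    rcases k with _ | _ | k
    · rw [pow_zero] at hdk; exact absurd hdk hd1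
    · simpa using hdk
    · exfalso
      have h3 : 17 ^ 2 ≤ 17 ^ (k + 1 + 1) := Nat.pow_le_pow_right (by norm_num) (by omega)
      rw [← hdk] at h3
      omega
  have h1 := Function.isPeriodicPt_minimalPeriod (x • · : Ω → Ω) b
  rw [← hd, hd17, Function.IsPeriodicPt, Function.IsFixedPt, smul_iterate] at h1
  exact h1

theorem exists_good (hΩ : Nat.card Ω = 18) (htr : IsPretransitive G Ω) {a : Ω} {x : G} (hxa : x • a = a)
    {m : ℕ} (hx : x ^ (17 ^ m) = 1) (hx1 : ∃ b : Ω, x • b ≠ b)
    (hst : ∀ g : G, g • a = a → ∃ k : ℕ, ∀ y : Ω, (g * x * g⁻¹) • y = x ^ k • y) :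
    ∃ ρ : G →* Perm X, Good ρ.range ∧ ∀ g : G, ρ g = 1 ↔ ∀ y : Ω, g • y = y := by
  classical
  obtain ⟨b, hb⟩ := hx1
  have hba : b ≠ a := by
    rintro rfl
    exact hb hxa
  have h17 := period_of_move hΩ hxa hx hb
  have hxpa : ∀ n : ℕ, x ^ n • a = a := fun n => (stabilizer G a).pow_mem (show x ∈ stabilizer G a from hxa) n
  have hper := pow_period h17
  have hinj : ∀ i j : ℕ, i < 17 → j < 17 → x ^ i • b = x ^ j • b → i = j := by
    have key : ∀ i j : ℕ, i ≤ j → j < 17 → x ^ i • b = x ^ j • b → i = j := by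
      intro i j hij hj h
      obtain ⟨k, rfl⟩ := Nat.exists_eq_add_of_le hij
      rw [pow_add, mul_smul] at h
      have h1 : b = x ^ k • b := smul_left_cancel _ h
      by_contra hne
      have hk : k ≠ 0 := by omega
      have hcop : Nat.Coprime k 17 := by
        rw [Nat.coprime_comm, Nat.Prime.coprime_iff_not_dvd (by norm_num)]
        exact fun hd => absurd (Nat.le_of_dvd (by omega) hd) (by omega)
      have hmem1 : x ^ k ∈ stabilizer G b := h1.symm
      have hmem2 : x ^ 17 ∈ stabilizer G b := h17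
      have h2 : x ^ (Nat.gcd k 17 : ℤ) ∈ stabilizer G b := by
        rw [Nat.gcd_eq_gcd_ab, zpow_add, zpow_mul, zpow_mul, zpow_natCast, zpow_natCast]
        exact mul_mem (zpow_mem hmem1 _) (zpow_mem hmem2 _)
      rw [hcop.gcd_eq_one] at h2
      simp only [Nat.cast_one, zpow_one] at h2
      exact hb h2
    intro i j hi hj h
    rcases le_total i j with hij | hij
    · exact key i j hij hj h
    · exact (key j i hij hi h.symm).symm
  -- coordinates
  let ψ : X → Ω := fun y => match y with
    | none => a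
    | some i => x ^ i.val • b
  have hψ0 : ψ none = a := rfl
  have hψ1 : ∀ i : ZMod 17, ψ (some i) = x ^ i.val • b := fun i => rfl
  have hne : ∀ n : ℕ, x ^ n • b ≠ a := by
    intro n h
    exact hba (smul_left_cancel _ (h.trans (hxpa n).symm))
  have hψinj : Function.Injective ψ := by
    intro y z h
    cases y with
    | none =>
      cases z with
      | none => rfl
      | some j => exact absurd h.symm (hne _)
    | some i =>
      cases z with
      | none => exact absurd h (hne _)
      | some j =>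
        have h1 := hinj i.val j.val (ZMod.val_lt i) (ZMod.val_lt j) h
        rw [ZMod.val_injective 17 h1]
  have hψ : Function.Bijective ψ :=
    (Nat.bijective_iff_injective_and_card ψ).mpr ⟨hψinj, by rw [card_X, hΩ]⟩
  let e : X ≃ Ω := Equiv.ofBijective ψ hψ
  have hψn : ∀ n : ℕ, x ^ n • b = ψ (some (n : ZMod 17)) := by
    intro n
    rw [hψ1, ZMod.val_natCast, hper n]
  let ρ : G →* Perm X := ((Equiv.permCongrHom e.symm).toMonoidHom).comp (toPermHom G Ω)
  have hρ : ∀ (g : G) (y z : X), ρ g y = z ↔ g • ψ y = ψ z := by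
    intro g y z
    change e.symm (g • e y) = z ↔ _
    rw [Equiv.symm_apply_eq]
    rfl
  refine ⟨ρ, ⟨?_, ?_, ?_⟩, ?_⟩
  · refine ⟨ρ x, ⟨x, rfl⟩, ?_, ?_⟩
    · rw [hρ]; exact hxa
    · intro i
      rw [hρ, hψ1, ← mul_smul, ← pow_succ', hψn]
      congr 2
  · intro y z
    obtain ⟨g, hg⟩ := htr.exists_smul_eq (ψ y) (ψ z)
    exact ⟨ρ g, ⟨g, rfl⟩, (hρ g y z).mpr hg⟩
  · rintro _ ⟨g, rfl⟩ hg
    rw [hρ] at hg
    obtain ⟨k, hk⟩ := hst g hg
    -- `g b`
    obtain ⟨y, hy⟩ := hψ.2 (g • b)
    have hya : y ≠ none := by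
      rintro rfl
      rw [hψ0] at hy
      have : g • b = g • a := hy.symm.trans hg.symm
      exact hba (smul_left_cancel _ this)
    obtain ⟨j, rfl⟩ := Option.ne_none_iff_exists'.mp hya
    refine ⟨(k : ZMod 17), j, fun i => ?_⟩
    rw [hρ, hψ1]
    have h1 : ∀ n : ℕ, g • x ^ n • b = x ^ (k * n) • g • b := by
      intro n
      induction n with
      | zero => simp
      | succ n ih =>
        have h2 : g • x ^ (n + 1) • b = (g * x * g⁻¹) • g • x ^ n • b := by
          simp only [← mul_smul]
          congr 1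
          rw [pow_succ']
          group
        rw [h2, hk, ih, ← mul_smul, ← pow_add]
        congr 2
        ring
    rw [h1, ← hy, hψ1, ← mul_smul, ← pow_add, hψn]
    congr 2
    push_cast
    rw [ZMod.natCast_zmod_val, ZMod.natCast_zmod_val]
  · intro g
    constructor
    · intro h y
      obtain ⟨z, rfl⟩ := hψ.2 y
      rw [← hρ g z z, h]
      rfl
    · intro h
      ext1 z
      rw [hρ]
      exact h _

end Cfsg.Agent.Lib.Deg18
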