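import Cfsg.Agent.Lib.MobCard
import Cfsg.Agent.Lib.RelSylow

/-! Sylow normalisers in `PSL(2,17)` and groups containing it as a subgroup of index at most two. -/

set_option autoImplicit false

namespace Cfsg.Agent.Lib.PSL17

open Subgroup MobCount Matrix
open scoped Pointwise

variable {F : Type*} [Field F] [Fintype F]

theorem card_psl (hF : Fintype.card F = 17) : Nat.card (P2 F) = 2448 := by
  have h := card_P2 (F := F) hF
  norm_num at h
  omega

theorem simple (hF : Fintype.card F = 17) : IsSimpleGroup (P2 F) :=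
  Matrix.ProjectiveSpecialLinearGroup.rank_two_simple (by rw [Nat.card_eq_fintype_card, hF]; norm_num)

/-- orders of proper subgroups -/
theorem card_cases (hF : Fintype.card F = 17) (A : Subgroup (P2 F)) (hA : A ≠ ⊤) :
    Nat.card A ∣ 9 ∨ Nat.card A ∣ 8 ∨ Nat.card A ∣ 18 ∨ Nat.card A ∣ 16 ∨ Nat.card A = 12 ∨ Nat.card A = 24 ∨
      Nat.card A = 60 ∨ Nat.card A ∣ 136 := by
  obtain ⟨p, hp⟩ := CharP.exists F
  have hpF : Fact p.Prime := ⟨CharP.char_is_prime F p⟩
  have hg : Nat.gcd 2 (17 - 1) = 2 := by norm_num
  rcases psl_cases hF p A hA with ⟨-, -, h⟩ | ⟨C, -, -, -, hc, -, h, -⟩ | ⟨-, h, -⟩ | ⟨-, h, -⟩ | ⟨-, h, -⟩ |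
    ⟨-, x, hx⟩ | ⟨g, k, m, hm, hk, -⟩
  · rw [hg] at h
    rcases h with h | h
    · left; exact Nat.dvd_of_mul_dvd_mul_left (by norm_num : 0 < 2) (by simpa using h)
    · right; left; exact Nat.dvd_of_mul_dvd_mul_left (by norm_num : 0 < 2) (by simpa using h)
  · rw [hg] at h
    rcases h with h | h
    · right; right; left; rw [hc]; exact h
    · right; right; right; left; rw [hc]; exact h
  · right; right; right; right; left; exact h
  · right; right; right; right; right; left; exact h
  · right; right; right; right; right; right; left; exact h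
  · right; right; right; right; right; right; right
    have h1 := card_stab (F := F) hF x
    rw [hg] at h1
    have h2 : Nat.card (MulAction.stabilizer (P2 F) x) = 136 := by
      generalize Nat.card (MulAction.stabilizer (P2 F) x) = n at h1
      omega
    rw [← h2]
    exact card_dvd_of_le hx
  · exfalso
    have : (17 : ℕ).Prime := by norm_num
    rw [← hk] at this
    exact Nat.Prime.not_prime_pow hm this

theorem card_le_two (hF : Fintype.card F = 17) {A R : Subgroup (P2 F)} (hR : Nat.card R = 16) (hRA : R ≤ A)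
    (hn : A ≤ normalizer (R : Set (P2 F))) : Nat.card A ≤ 16 := by
  have hs := simple hF
  have hA : A ≠ ⊤ := by
    rintro rfl
    have h1 := normalizer_eq_top_iff.mp (top_le_iff.mp hn)
    rcases h1.eq_bot_or_eq_top with h | h
    · rw [h, card_bot] at hR; omega
    · rw [h, card_top, card_psl hF] at hR; omega
  have h16 : 16 ∣ Nat.card A := hR ▸ card_dvd_of_le hRA
  have hpos : 0 < Nat.card A := Nat.card_pos
  rcases card_cases hF A hA with h | h | h | h | h | h | h | h
  · exact absurd (h16.trans h) (by norm_num)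
  · exact absurd (h16.trans h) (by norm_num)
  · exact absurd (h16.trans h) (by norm_num)
  · exact Nat.le_of_dvd (by norm_num) h
  · rw [h] at h16; exact absurd h16 (by norm_num)
  · rw [h] at h16; exact absurd h16 (by norm_num)
  · rw [h] at h16; exact absurd h16 (by norm_num)
  · exact absurd (h16.trans h) (by norm_num)

theorem card_le_three (hF : Fintype.card F = 17) {A R : Subgroup (P2 F)} (hR : Nat.card R = 9) (hRA : R ≤ A)
    (hn : A ≤ normalizer (R : Set (P2 F))) : Nat.card A ≤ 18 := by
  have hs := simple hF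
  have hA : A ≠ ⊤ := by
    rintro rfl
    have h1 := normalizer_eq_top_iff.mp (top_le_iff.mp hn)
    rcases h1.eq_bot_or_eq_top with h | h
    · rw [h, card_bot] at hR; omega
    · rw [h, card_top, card_psl hF] at hR; omega
  have h9 : 9 ∣ Nat.card A := hR ▸ card_dvd_of_le hRA
  rcases card_cases hF A hA with h | h | h | h | h | h | h | h
  · exact (Nat.le_of_dvd (by norm_num) h).trans (by norm_num)
  · exact absurd (h9.trans h) (by norm_num)
  · exact Nat.le_of_dvd (by norm_num) h
  · exact absurd (h9.trans h) (by norm_num)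
  · rw [h] at h9; exact absurd h9 (by norm_num)
  · rw [h] at h9; exact absurd h9 (by norm_num)
  · rw [h] at h9; exact absurd h9 (by norm_num)
  · exact absurd (h9.trans h) (by norm_num)

theorem card_sylow_two {S : Type*} [Group S] [Finite S] (h : Nat.card S = 2448) (P : Sylow 2 S) :
    Nat.card P = 16 := by
  obtain ⟨k, hk⟩ := IsPGroup.iff_card.mp P.2
  have h1 := Subgroup.card_mul_index (P : Subgroup S)
  have h2 : ¬ 2 ∣ (P : Subgroup S).index := P.not_dvd_index
  rw [h, hk] at h1
  have hk11 : k < 12 := by
    by_contra hge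
    have h3 : 2 ^ 12 ≤ 2 ^ k := Nat.pow_le_pow_right (by norm_num) (by omega)
    have h4 : 2 ^ k ≤ 2448 := Nat.le_of_dvd (by norm_num) ⟨_, h1.symm⟩
    norm_num at h3
    omega
  rw [hk]
  generalize (P : Subgroup S).index = m at h1 h2
  interval_cases k <;> omega

theorem card_sylow_three {S : Type*} [Group S] [Finite S] (h : Nat.card S = 2448) (P : Sylow 3 S) :
    Nat.card P = 9 := by
  obtain ⟨k, hk⟩ := IsPGroup.iff_card.mp P.2
  have h1 := Subgroup.card_mul_index (P : Subgroup S)
  have h2 : ¬ 3 ∣ (P : Subgroup S).index := P.not_dvd_index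
  rw [h, hk] at h1
  have hk11 : k < 8 := by
    by_contra hge
    have h3 : 3 ^ 8 ≤ 3 ^ k := Nat.pow_le_pow_right (by norm_num) (by omega)
    have h4 : 3 ^ k ≤ 2448 := Nat.le_of_dvd (by norm_num) ⟨_, h1.symm⟩
    norm_num at h3
    omega
  rw [hk]
  generalize (P : Subgroup S).index = m at h1 h2
  interval_cases k <;> omega

theorem sylow_bound (hF : Fintype.card F = 17) {D : Type*} [Group D] [Finite D] (S : Subgroup D) [hS : S.Normal]
    (e : S ≃* P2 F) {r : ℕ} [hr : Fact r.Prime] (P : Sylow r D) {b c : ℕ}
    (hb : ∀ Q : Sylow r S, Nat.card Q = b)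
    (hc : ∀ A R : Subgroup (P2 F), Nat.card R = b → R ≤ A → A ≤ normalizer (R : Set (P2 F)) → Nat.card A ≤ c) :
    2448 ≤ Nat.card (Sylow r D) * c := by
  set A : Subgroup D := normalizer ((P : Subgroup D) : Set D) with hA
  have hPA : (P : Subgroup D) ≤ A := le_normalizer
  have h1 : RelSylow.IsSyl r ((P : Subgroup D) ⊓ S) S :=
    (RelSylow.isSyl_top_iff P).inf le_top (by rw [normalizer_eq_top_iff.mpr hS])
  obtain ⟨Q, hQ1, hQ2⟩ := h1.exists_sylow
  have hQc := hb Q
  have hQe : (Q : Subgroup S) = (P : Subgroup D).subgroupOf S := by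
    rw [hQ2, inf_subgroupOf_right]
  have h2 : Nat.card ((A.subgroupOf S).map e.toMonoidHom) ≤ c := by
    apply hc _ ((Q : Subgroup S).map e.toMonoidHom)
    · rw [card_map_of_injective e.injective]; exact hQc
    · apply map_mono
      rw [hQe]
      exact subgroupOf_mono S hPA
    · refine le_trans ?_ (le_normalizer_map e.toMonoidHom)
      apply map_mono
      rw [hQe]
      intro x hx
      rw [mem_normalizer_iff]
      intro y
      exact mem_normalizer_iff.mp (mem_subgroupOf.mp hx) y
  rw [card_map_of_injective e.injective] at h2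
  have h3 : Nat.card (A.subgroupOf S) * S.relIndex A = Nat.card A := by
    have h4 : Nat.card (A.subgroupOf S) = Nat.card (S.subgroupOf A) := by
      rw [← card_map_of_injective S.subtype_injective, ← card_map_of_injective A.subtype_injective,
        subgroupOf_map_subtype, subgroupOf_map_subtype, inf_comm]
    rw [h4]
    exact card_mul_index _
  have h5 : S.relIndex A ≤ S.index :=
    Nat.le_of_dvd (Nat.pos_of_ne_zero S.index_ne_zero_of_finite) (relIndex_dvd_index_of_normal S A)
  have h6 : Nat.card (Sylow r D) * Nat.card A = Nat.card D := by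
    rw [P.card_eq_index_normalizer, mul_comm]
    exact card_mul_index _
  have h7 : S.index * 2448 = Nat.card D := by
    have h8 : Nat.card S = 2448 := by rw [Nat.card_congr e.toEquiv, card_psl hF]
    rw [← h8, mul_comm]
    exact card_mul_index S
  have hpos : 0 < S.index := Nat.pos_of_ne_zero S.index_ne_zero_of_finite
  have h9 : Nat.card A ≤ c * S.index := by
    rw [← h3]
    exact Nat.mul_le_mul h2 h5
  have h10 : S.index * 2448 ≤ S.index * (Nat.card (Sylow r D) * c) := by
    rw [h7, ← h6]
    calc Nat.card (Sylow r D) * Nat.card A ≤ Nat.card (Sylow r D) * (c * S.index) :=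
          Nat.mul_le_mul_left _ h9
      _ = _ := by ring
  exact Nat.le_of_mul_le_mul_left h10 hpos

theorem sylow_two_bound (hF : Fintype.card F = 17) {D : Type*} [Group D] [Finite D] (S : Subgroup D)
    [S.Normal] (e : S ≃* P2 F) : 153 ≤ Nat.card (Sylow 2 D) := by
  have hS : Nat.card S = 2448 := by rw [Nat.card_congr e.toEquiv, card_psl hF]
  have h := sylow_bound hF S e (default : Sylow 2 D) (fun Q => card_sylow_two hS Q)
    (fun A R h1 h2 h3 => card_le_two hF h1 h2 h3)
  omega

theorem sylow_three_bound (hF : Fintype.card F = 17) {D : Type*} [Group D] [Finite D] (S : Subgroup D)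
    [S.Normal] (e : S ≃* P2 F) : 136 ≤ Nat.card (Sylow 3 D) := by
  have hS : Nat.card S = 2448 := by rw [Nat.card_congr e.toEquiv, card_psl hF]
  have h := sylow_bound hF S e (default : Sylow 3 D) (fun Q => card_sylow_three hS Q)
    (fun A R h1 h2 h3 => card_le_three hF h1 h2 h3)
  omega

end Cfsg.Agent.Lib.PSL17
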