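import Cfsg.Agent.Lib.RelSylow
import Cfsg.Agent.Lib.SubgroupTools
import Cfsg.Agent.Lib.CriticalOdd
import Cfsg.Agent.Lib.UniqueInvolution

/-! Sylow numbers and normal subgroups (helper61). -/

set_option autoImplicit false

namespace Cfsg.Agent.Lib.SylKer

open Subgroup RelSylow

variable {G : Type*} [Group G] [Finite G]

/-- If a quotient has at least as many Sylow subgroups, the kernel normalises them. -/
theorem ker_le_normalizer {D : Type*} [Group D] [Finite D] {r : ℕ} [hr : Fact r.Prime] (f : G →* D)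
    (hf : Function.Surjective f) (P : Sylow r G) (h : Nat.card (Sylow r G) ≤ Nat.card (Sylow r D)) :
    f.ker ≤ normalizer ((P : Subgroup G) : Set G) := by
  have hQ : ((P.mapSurjective hf : Sylow r D) : Subgroup D) = (P : Subgroup G).map f := rfl
  have h1 : Nat.card (Sylow r G) = (normalizer ((P : Subgroup G) : Set G)).index :=
    P.card_eq_index_normalizer
  have h2 : Nat.card (Sylow r D) =
      (normalizer (((P.mapSurjective hf : Sylow r D) : Subgroup D) : Set D)).index :=
    (P.mapSurjective hf).card_eq_index_normalizer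
  set A := normalizer ((P : Subgroup G) : Set G) with hA
  set B := (normalizer (((P.mapSurjective hf : Sylow r D) : Subgroup D) : Set D)).comap f with hB
  have hAB : A ≤ B := by
    rw [hB, ← map_le_iff_le_comap, hQ]
    exact le_normalizer_map f
  have hBi : B.index = Nat.card (Sylow r D) := by
    rw [h2, hB, index_comap_of_surjective _ hf]
  have h3 := relIndex_mul_index hAB
  rw [← h1, hBi] at h3
  have hpos : 0 < Nat.card (Sylow r D) := Nat.card_pos
  have h4 : A.relIndex B = 1 := by
    have h5 : A.relIndex B ≠ 0 := by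
      intro h0
      rw [h0, zero_mul] at h3
      exact Nat.card_pos.ne h3
    by_contra hne
    have h6 : 2 * Nat.card (Sylow r D) ≤ A.relIndex B * Nat.card (Sylow r D) :=
      Nat.mul_le_mul_right _ (by omega)
    omega
  have h5 : B ≤ A := relIndex_eq_one.mp h4
  refine le_trans ?_ h5
  rw [hB]
  exact fun x hx => mem_comap.mpr (by rw [hx]; exact one_mem _)

/-- The Sylow subgroup `R ∩ N` is normal in `G`. -/
theorem inf_normal {r : ℕ} [hr : Fact r.Prime] {N R : Subgroup G} [hN : N.Normal]
    (hR : IsSyl r R ⊤) (hNR : N ≤ normalizer (R : Set G)) : (R ⊓ N).Normal ∧ IsSyl r (R ⊓ N) N := by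
  have h1 : IsSyl r (R ⊓ N) N := hR.inf le_top (by rw [normalizer_eq_top_iff.mpr hN])
  refine ⟨?_, h1⟩
  rw [← normalizer_eq_top_iff, eq_top_iff]
  intro g _
  rw [mem_normalizer_iff_map]
  have h2 := h1.conj_isSyl' (g := g) (by rw [normalizer_eq_top_iff.mpr hN]; trivial)
  obtain ⟨n, hn, h3⟩ := h1.conj h2
  rw [← h3]
  apply conj_eq_of_mem_normalizer
  exact inf_normalizer_le_normalizer_inf ⟨hNR hn, le_normalizer hn⟩

/-- The `t`-part of the number of Sylow `s`-subgroups. -/
theorem sylow_count {s t : ℕ} [hs : Fact s.Prime] [ht : Fact t.Prime] (hst : s ≠ t) {N K R : Subgroup G}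
    [hN : N.Normal] [hKn : K.Normal] (hK : IsSyl t K N) (hR : IsSyl s R N) :
    ∃ m i : ℕ, ¬ t ∣ m ∧ (normalizer (R : Set G)).index = m * t ^ i ∧ t ^ i ≡ 1 [MOD s] := by
  set A := normalizer (R : Set G) with hA
  have hNt : (⊤ : Subgroup G) ≤ normalizer (N : Set G) := by rw [normalizer_eq_top_iff.mpr hN]
  have hKt : (⊤ : Subgroup G) ≤ normalizer (K : Set G) := by rw [normalizer_eq_top_iff.mpr hKn]
  have h1 : N ⊔ A = ⊤ := by
    have := hR.frattini_sup (H := ⊤) le_top hNt
    rwa [top_inf_eq] at this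
  have h2 := SubgroupTools.card_sup_mul_card_inf (N := N) (H := A) (le_top.trans hNt)
  rw [h1, card_top] at h2
  have h3 : A.index * Nat.card (N ⊓ A : Subgroup G) = Nat.card N := by
    have h4 := card_mul_index A
    have hpos : 0 < Nat.card A := Nat.card_pos
    apply Nat.eq_of_mul_eq_mul_left hpos
    calc Nat.card A * (A.index * Nat.card (N ⊓ A : Subgroup G))
        = (Nat.card A * A.index) * Nat.card (N ⊓ A : Subgroup G) := by ring
      _ = Nat.card N * Nat.card A := by rw [h4, h2]
      _ = _ := by ring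
  set B := K ⊔ (N ⊓ A) with hB
  have hBN : B ≤ N := sup_le hK.1 inf_le_left
  have h4 := SubgroupTools.card_sup_mul_card_inf (N := K) (H := N ⊓ A) (le_top.trans hKt)
  have hinf : K ⊓ (N ⊓ A) = K ⊓ A := by rw [← inf_assoc, inf_eq_left.mpr hK.1]
  rw [hinf, ← hB] at h4
  have h5 := SubgroupTools.card_mul_relIndex_of_le hBN
  have h6 := SubgroupTools.card_mul_relIndex_of_le (inf_le_left : K ⊓ A ≤ K)
  -- `|K| = t^k`
  obtain ⟨k, hk⟩ := IsPGroup.iff_card.mp hK.2.1
  obtain ⟨i, -, hi⟩ := (Nat.dvd_prime_pow ht.out).mp (show (K ⊓ A).relIndex K ∣ t ^ k from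
    hk ▸ relIndex_dvd_card _ _)
  obtain ⟨c, -, hc⟩ := (Nat.dvd_prime_pow ht.out).mp (show Nat.card (K ⊓ A : Subgroup G) ∣ t ^ k from
    hk ▸ card_dvd_of_le inf_le_left)
  have hposKA : 0 < Nat.card (K ⊓ A : Subgroup G) := Nat.card_pos
  have hposNA : 0 < Nat.card (N ⊓ A : Subgroup G) := Nat.card_pos
  have h7 : Nat.card B = t ^ i * Nat.card (N ⊓ A : Subgroup G) := by
    apply Nat.eq_of_mul_eq_mul_left hposKA
    rw [mul_comm, h4, ← h6, hi]
    ring
  refine ⟨B.relIndex N, i, ?_, ?_, ?_⟩
  · intro h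
    exact hK.2.2 (h.trans (relIndex_dvd_of_le_left N le_sup_left))
  · apply Nat.eq_of_mul_eq_mul_right hposNA
    rw [h3, ← h5, h7]
    ring
  · -- `K ⊓ A = K ⊓ C(R)`
    have hRK : R ≤ normalizer (K : Set G) := le_top.trans hKt
    have h8 : K ⊓ A = K ⊓ centralizer (R : Set G) := by
      apply le_antisymm
      · refine le_inf inf_le_left ?_
        have h9 : K ⊓ R = ⊥ := by
          apply SubgroupTools.inf_eq_bot_of_coprime'
          obtain ⟨l, hl⟩ := IsPGroup.iff_card.mp hR.2.1
          rw [hk, hl]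
          exact Nat.Coprime.pow _ _ ((Nat.coprime_primes ht.out hs.out).mpr hst.symm)
        rw [← commutator_eq_bot_iff_le_centralizer, eq_bot_iff, ← h9]
        refine le_inf ?_ ?_
        · exact (commutator_mono inf_le_left le_rfl).trans
            (LocBase.commutator_le_left_of_le hRK)
        · rw [commutator_comm]
          exact (commutator_mono le_rfl inf_le_right).trans
            (LocBase.commutator_le_left_of_le le_rfl)
      · exact inf_le_inf_left _ (centralizer_le_normalizer _)
    have h9 := CriticalOdd.card_modEq_centralizer hR.2.1 hRK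
    rw [← h8, ← h6, hi, hc] at h9
    -- `t^c * t^i ≡ t^c`
    have h10 : t ^ c * t ^ i ≡ t ^ c * 1 [MOD s] := by rwa [mul_one]
    exact Nat.ModEq.cancel_left_of_coprime (c := t ^ c)
      (Nat.Coprime.pow_right c ((Nat.coprime_primes hs.out ht.out).mpr hst)) h10

/-- In a group with trivial centre a normal subgroup normalising a Sylow `r`-subgroup for every `r`
is trivial. -/
theorem eq_bot_of_center (hZ : center G = ⊥) {N : Subgroup G} [hN : N.Normal]
    (h : ∀ r : ℕ, r.Prime → r ∣ Nat.card G → ∃ R : Subgroup G, IsSyl r R ⊤ ∧ N ≤ normalizer (R : Set G)) :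
    N = ⊥ := by
  by_contra hN1
  obtain ⟨s, hs, hsN⟩ := Nat.exists_prime_and_dvd (mt Subgroup.card_eq_one.mp hN1)
  have hsF : Fact s.Prime := ⟨hs⟩
  have hsG : s ∣ Nat.card G := hsN.trans (card_subgroup_dvd_card N)
  obtain ⟨R, hR, hNR⟩ := h s hs hsG
  obtain ⟨hKn, hK⟩ := inf_normal hR hNR
  set K := R ⊓ N with hKdef
  have hK1 : K ≠ ⊥ := by
    intro h0
    rw [h0] at hK
    apply hK.2.2
    rw [relIndex_bot_left]
    exact hsN
  have hKR : K ≤ R := inf_le_left
  have hKRn : (K.subgroupOf R).Normal := inferInstance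
  have hKR1 : K.subgroupOf R ≠ ⊥ := by
    intro h0
    rw [subgroupOf_eq_bot] at h0
    exact hK1 (h0.eq_bot_of_le hKR)
  obtain ⟨z, hzK, hz1, hz⟩ := UniqueInvolution.exists_central_of_normal hR.2.1 (K.subgroupOf R) hKR1
  have hRz : R ≤ centralizer ({(z : G)} : Set G) := by
    intro x hx
    rw [mem_centralizer_singleton_iff]
    exact congrArg Subtype.val (hz ⟨x, hx⟩)
  have hidx : (centralizer ({(z : G)} : Set G)).index = 1 := by
    by_contra hne
    obtain ⟨r, hr, hrd⟩ := Nat.exists_prime_and_dvd hne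
    have hrF : Fact r.Prime := ⟨hr⟩
    have hrG : r ∣ Nat.card G := hrd.trans (index_dvd_card _)
    have key : ∃ T : Subgroup G, IsSyl r T ⊤ ∧ T ≤ centralizer ({(z : G)} : Set G) := by
      by_cases hrs : r = s
      · subst hrs
        exact ⟨R, hR, hRz⟩
      · obtain ⟨T, hT, hNT⟩ := h r hr hrG
        refine ⟨T, hT, ?_⟩
        have h1 : K ⊓ T = ⊥ := by
          apply SubgroupTools.inf_eq_bot_of_coprime'
          obtain ⟨k, hk⟩ := IsPGroup.iff_card.mp hK.2.1
          obtain ⟨l, hl⟩ := IsPGroup.iff_card.mp hT.2.1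
          rw [hk, hl]
          exact Nat.Coprime.pow _ _ ((Nat.coprime_primes hs hr).mpr (Ne.symm hrs))
        have h2 : T ≤ centralizer (K : Set G) := by
          rw [le_centralizer_iff, ← commutator_eq_bot_iff_le_centralizer, eq_bot_iff, ← h1]
          refine le_inf (LocBase.commutator_le_left_of_le ?_) ?_
          · rw [normalizer_eq_top_iff.mpr hKn]; exact le_top
          · rw [commutator_comm]
            exact LocBase.commutator_le_left_of_le ((inf_le_right).trans hNT)
        refine h2.trans (centralizer_le ?_)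
        rw [Set.singleton_subset_iff]
        exact mem_subgroupOf.mp hzK
    obtain ⟨T, hT, hTz⟩ := key
    apply hT.2.2
    rw [relIndex_top_right]
    exact hrd.trans (index_dvd_of_le hTz)
  rw [index_eq_one] at hidx
  apply hz1
  apply Subtype.ext
  have : (z : G) ∈ center G := by
    rw [mem_center_iff]
    intro g
    have hg : g ∈ centralizer ({(z : G)} : Set G) := by rw [hidx]; trivial
    exact mem_centralizer_singleton_iff.mp hg
  rw [hZ] at this
  exact mem_bot.mp this

end Cfsg.Agent.Lib.SylKer
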