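import Cfsg.Agent.Lib.Deg18c
import Cfsg.Agent.Lib.PSL17
import Cfsg.Agent.Lib.SylKer

/-! Groups with Sylow numbers 18, 136, 153 (helper61). -/

set_option autoImplicit false

namespace Cfsg.Agent.Lib.Deg18

open Equiv MulAction

/-- `PSL(2,17)` is a normal subgroup of a good group. -/
theorem Good.exists_psl {H : Subgroup (Perm X)} (hG : Good H) :
    ∃ (E : Type) (_ : Field E) (_ : Fintype E) (S : Subgroup H), Fintype.card E = 17 ∧ S.Normal ∧
      Nonempty (S ≃* MobCount.P2 E) := by
  rcases hG.card_T_cases with h | h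
  · obtain ⟨e⟩ := hG.pgl h
    have e' : H ≃* Matrix.ProjGenLinGroup (Fin 2) (ZMod 17) := e
    set f : MobCount.P2 (ZMod 17) →* Matrix.ProjGenLinGroup (Fin 2) (ZMod 17) :=
      Matrix.ProjectiveSpecialLinearGroup.toPGL with hf
    have hfinj : Function.Injective f := Matrix.ProjectiveSpecialLinearGroup.toPGL_injective
    have hidx : f.range.index = 2 := by
      have h1 := Subgroup.card_mul_index f.range
      have h2 : Nat.card f.range = 2448 := by
        rw [← Nat.card_congr (MonoidHom.ofInjective hfinj).toEquiv, PSL17.card_psl (ZMod.card 17)]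
      rw [h2, MobCount.card_G2 (F := ZMod 17) (ZMod.card 17)] at h1
      norm_num at h1
      omega
    have hn : f.range.Normal := Subgroup.normal_of_index_eq_two hidx
    have e1 : f.range ≃* MobCount.P2 (ZMod 17) := (MonoidHom.ofInjective hfinj).symm
    exact ⟨ZMod 17, inferInstance, inferInstance, f.range.map (e'.symm : _ →* H), ZMod.card 17,
      hn.map _ e'.symm.surjective, ⟨(e'.symm.subgroupMap f.range).symm.trans e1⟩⟩
  · obtain ⟨E, hE, hEf, hc, ⟨e⟩⟩ := hG.psl h
    exact ⟨E, hE, hEf, ⊤, hc, inferInstance, ⟨Subgroup.topEquiv.trans e⟩⟩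

variable {G : Type*} [Group G] [Finite G]

theorem exists_rho (h18 : Nat.card (Sylow 17 G) = 18) :
    ∃ ρ : G →* Perm X, Good ρ.range ∧ ∀ g : G, ρ g = 1 ↔ ∀ Q : Sylow 17 G, g • Q = Q := by
  classical
  obtain ⟨P⟩ : Nonempty (Sylow 17 G) := inferInstance
  have hmove : ∃ x ∈ (P : Subgroup G), ∃ Q : Sylow 17 G, x • Q ≠ Q := by
    by_contra hcon
    push Not at hcon
    have h1 : ∀ Q : Sylow 17 G, Q = P := by
      intro Q
      have h2 : (P : Subgroup G) ≤ (Q : Subgroup G) := by
        have h3 := P.2.inf_normalizer_sylow Q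
        have h4 : (P : Subgroup G) ≤ Subgroup.normalizer ((Q : Subgroup G) : Set G) := by
          intro x hx
          exact Sylow.smul_eq_iff_mem_normalizer.mp (hcon x hx Q)
        have h5 : (P : Subgroup G) ⊓ Subgroup.normalizer ((Q : Subgroup G) : Set G) =
            (P : Subgroup G) ⊓ (Q : Subgroup G) := h3
        rw [inf_eq_left.mpr h4] at h5
        rw [h5]
        exact inf_le_right
      exact Sylow.ext (P.is_maximal' Q.2 h2)
    have h2 : Nat.card (Sylow 17 G) ≤ 1 := by
      rw [Finite.card_le_one_iff_subsingleton]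
      exact ⟨fun a b => (h1 a).trans (h1 b).symm⟩
    omega
  obtain ⟨x, hxP, Q, hQ⟩ := hmove
  obtain ⟨m, hm⟩ := P.2 ⟨x, hxP⟩
  have hxm : x ^ 17 ^ m = 1 := congrArg Subtype.val hm
  have hxa : x • P = P := Sylow.smul_eq_iff_mem_normalizer.mpr (Subgroup.le_normalizer hxP)
  refine exists_good h18 inferInstance hxa hxm ⟨Q, hQ⟩ ?_
  -- the image of `P` has order 17
  set φ := toPermHom G (Sylow 17 G) with hφ
  have hcard : Nat.card ((P : Subgroup G).map φ) = 17 := by
    obtain ⟨n, hn⟩ := IsPGroup.iff_card.mp (P.2.map φ)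
    have h1 : Nat.card ((P : Subgroup G).map φ) ∣ Nat.factorial 18 := by
      have h2 := Subgroup.card_subgroup_dvd_card ((P : Subgroup G).map φ)
      rwa [Nat.card_perm, h18] at h2
    have hn2 : n < 2 := by
      by_contra hge
      have h3 : 17 ^ 2 ∣ 17 ^ n := pow_dvd_pow 17 (by omega)
      rw [← hn] at h3
      exact absurd (h3.trans h1) (by decide)
    have hn0 : n ≠ 0 := by
      rintro rfl
      rw [pow_zero, Subgroup.card_eq_one] at hn
      have h4 : φ x ∈ (P : Subgroup G).map φ := ⟨x, hxP, rfl⟩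
      rw [hn, Subgroup.mem_bot] at h4
      exact hQ (congrFun (congrArg DFunLike.coe h4) Q)
    have : n = 1 := by omega
    rw [hn, this, pow_one]
  intro g hg
  have hgN : g ∈ Subgroup.normalizer ((P : Subgroup G) : Set G) :=
    Sylow.smul_eq_iff_mem_normalizer.mp hg
  have h1 : φ x ∈ (P : Subgroup G).map φ := ⟨x, hxP, rfl⟩
  have h2 : φ (g * x * g⁻¹) ∈ (P : Subgroup G).map φ :=
    ⟨g * x * g⁻¹, (Subgroup.mem_normalizer_iff.mp hgN x).mp hxP, rfl⟩
  have h3 : φ x ≠ 1 := fun h => hQ (congrFun (congrArg DFunLike.coe h) Q)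
  have hF : Fact (Nat.card ((P : Subgroup G).map φ)).Prime := ⟨by rw [hcard]; norm_num⟩
  have h4 : Subgroup.zpowers (⟨φ x, h1⟩ : (P : Subgroup G).map φ) = ⊤ := by
    apply Subgroup.eq_top_of_card_eq
    rcases (Nat.dvd_prime hF.out).mp (Subgroup.card_subgroup_dvd_card
      (Subgroup.zpowers (⟨φ x, h1⟩ : (P : Subgroup G).map φ))) with h | h
    · exfalso
      rw [Subgroup.card_eq_one, Subgroup.zpowers_eq_bot] at h
      exact h3 (congrArg Subtype.val h)
    · exact h
  have h5 : (⟨φ (g * x * g⁻¹), h2⟩ : (P : Subgroup G).map φ) ∈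
      Subgroup.zpowers (⟨φ x, h1⟩ : (P : Subgroup G).map φ) := by rw [h4]; trivial
  rw [mem_zpowers_iff_mem_range_orderOf] at h5
  obtain ⟨k, -, hk⟩ := Finset.mem_image.mp h5
  refine ⟨k, fun y => ?_⟩
  have h6 : φ x ^ k = φ (g * x * g⁻¹) := congrArg Subtype.val hk
  rw [← map_pow] at h6
  exact (congrFun (congrArg DFunLike.coe h6) y).symm

end Cfsg.Agent.Lib.Deg18
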