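import Cfsg.Agent.Lib.Deg18d

/-! Groups with Sylow numbers 18, 136, 153, part 2 (helper61). -/

set_option autoImplicit false

namespace Cfsg.Agent.Lib.Deg18

open Equiv MulAction Subgroup RelSylow

variable {G : Type*} [Group G] [Finite G]

theorem dvd_of_modEq {n r : ℕ} (h : n ≡ 1 [MOD r]) (hn : 1 ≤ n) : r ∣ n - 1 :=
  (Nat.modEq_iff_dvd' hn).mp h.symm

theorem prime_cases {r : ℕ} (hr : r.Prime) (h : (18 : ℕ) ≡ 1 [MOD r]) : r = 17 := by
  have h1 : r ∣ 17 := dvd_of_modEq h (by norm_num)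
  exact (Nat.prime_dvd_prime_iff_eq hr (by norm_num)).mp h1

theorem prime_cases2 {r : ℕ} (hr : r.Prime) (h : (136 : ℕ) ≡ 1 [MOD r]) : r = 3 ∨ r = 5 := by
  have h1 : r ∣ 3 ^ 3 * 5 := dvd_of_modEq h (by norm_num)
  rcases hr.dvd_mul.mp h1 with h2 | h2
  · left; exact (Nat.prime_dvd_prime_iff_eq hr Nat.prime_three).mp (hr.dvd_of_dvd_pow h2)
  · right; exact (Nat.prime_dvd_prime_iff_eq hr Nat.prime_five).mp h2

theorem prime_cases3 {r : ℕ} (hr : r.Prime) (h : (153 : ℕ) ≡ 1 [MOD r]) : r = 2 ∨ r = 19 := by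
  have h1 : r ∣ 2 ^ 3 * 19 := dvd_of_modEq h (by norm_num)
  rcases hr.dvd_mul.mp h1 with h2 | h2
  · left; exact (Nat.prime_dvd_prime_iff_eq hr Nat.prime_two).mp (hr.dvd_of_dvd_pow h2)
  · right; exact (Nat.prime_dvd_prime_iff_eq hr (by norm_num)).mp h2

theorem facts (hNS : {c : ℕ | ∃ r : ℕ, r.Prime ∧ r ∣ Nat.card G ∧ c = Nat.card (Sylow r G)} =
      ({18, 136, 153} : Set ℕ)) :
    (Nat.card (Sylow 17 G) = 18 ∧ 17 ∣ Nat.card G) ∧ (Nat.card (Sylow 3 G) = 136 ∧ 3 ∣ Nat.card G) ∧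
      (Nat.card (Sylow 2 G) = 153 ∧ 2 ∣ Nat.card G) ∧
      ∀ r : ℕ, r.Prime → r ∣ Nat.card G → r = 2 ∨ r = 3 ∨ r = 17 ∨
        (r = 5 ∧ Nat.card (Sylow 5 G) = 136) ∨ (r = 19 ∧ Nat.card (Sylow 19 G) = 153) := by
  have hmem : ∀ r : ℕ, r.Prime → r ∣ Nat.card G → Nat.card (Sylow r G) = 18 ∨
      Nat.card (Sylow r G) = 136 ∨ Nat.card (Sylow r G) = 153 := by
    intro r hr hrG
    have h1 : Nat.card (Sylow r G) ∈ ({18, 136, 153} : Set ℕ) := by
      rw [← hNS]
      exact ⟨r, hr, hrG, rfl⟩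
    simpa using h1
  have hmod : ∀ r : ℕ, r.Prime → Nat.card (Sylow r G) ≡ 1 [MOD r] := by
    intro r hr
    have : Fact r.Prime := ⟨hr⟩
    exact card_sylow_modEq_one r G
  have h17 : Nat.card (Sylow 17 G) = 18 ∧ 17 ∣ Nat.card G := by
    have h1 : (18 : ℕ) ∈ {c : ℕ | ∃ r : ℕ, r.Prime ∧ r ∣ Nat.card G ∧ c = Nat.card (Sylow r G)} := by
      rw [hNS]; simp
    obtain ⟨r, hr, hrG, hc⟩ := h1
    have h2 := hmod r hr
    rw [← hc] at h2
    have h3 := prime_cases hr h2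
    subst h3
    exact ⟨hc.symm, hrG⟩
  have hF17 : Fact (Nat.Prime 17) := ⟨by norm_num⟩
  have h18 : 18 ∣ Nat.card G := by
    have P : Sylow 17 G := default
    have h1 : Nat.card (Sylow 17 G) ∣ Nat.card G := by
      rw [P.card_eq_index_normalizer]
      exact index_dvd_card _
    rwa [h17.1] at h1
  have h3G : 3 ∣ Nat.card G := (by norm_num : 3 ∣ 18).trans h18
  have h2G : 2 ∣ Nat.card G := (by norm_num : 2 ∣ 18).trans h18
  have h3 : Nat.card (Sylow 3 G) = 136 := by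
    have h1 := hmod 3 Nat.prime_three
    rcases hmem 3 Nat.prime_three h3G with h | h | h
    · rw [h] at h1; exact absurd (prime_cases Nat.prime_three h1) (by norm_num)
    · exact h
    · rw [h] at h1; exact absurd (prime_cases3 Nat.prime_three h1) (by norm_num)
  have h2 : Nat.card (Sylow 2 G) = 153 := by
    have h1 := hmod 2 Nat.prime_two
    rcases hmem 2 Nat.prime_two h2G with h | h | h
    · rw [h] at h1; exact absurd (prime_cases Nat.prime_two h1) (by norm_num)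
    · rw [h] at h1; exact absurd (prime_cases2 Nat.prime_two h1) (by norm_num)
    · exact h
  refine ⟨h17, ⟨h3, h3G⟩, ⟨h2, h2G⟩, ?_⟩
  intro r hr hrG
  have h1 := hmod r hr
  rcases hmem r hr hrG with h | h | h
  · rw [h] at h1; exact Or.inr (Or.inr (Or.inl (prime_cases hr h1)))
  · have h1' := h1
    rw [h] at h1'
    rcases prime_cases2 hr h1' with h4 | h4
    · exact Or.inr (Or.inl h4)
    · subst h4; exact Or.inr (Or.inr (Or.inr (Or.inl ⟨rfl, h⟩)))
  · have h1' := h1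
    rw [h] at h1'
    rcases prime_cases3 hr h1' with h4 | h4
    · exact Or.inl h4
    · subst h4; exact Or.inr (Or.inr (Or.inr (Or.inr ⟨rfl, h⟩)))

theorem index_normalizer_eq {r : ℕ} [Fact r.Prime] {R : Subgroup G} (hR : IsSyl r R ⊤) :
    (normalizer (R : Set G)).index = Nat.card (Sylow r G) := by
  obtain ⟨Q, hQ⟩ := hR.toSylow
  have h1 : Nat.card (Sylow r G) = (normalizer ((Q : Subgroup G) : Set G)).index :=
    Q.card_eq_index_normalizer
  rw [h1, hQ]

theorem le_ker_of_not_dvd {D : Type*} [Group D] [Finite D] {s : ℕ} [hs : Fact s.Prime] (ρ : G →* D)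
    (h : ¬ s ∣ Nat.card ρ.range) {R : Subgroup G} (hR : IsPGroup s R) : R ≤ ρ.ker := by
  obtain ⟨n, hn⟩ := IsPGroup.iff_card.mp (hR.map ρ)
  have h1 : Nat.card (R.map ρ) ∣ Nat.card ρ.range := card_dvd_of_le (by
    rintro _ ⟨x, -, rfl⟩
    exact ⟨x, rfl⟩)
  have h2 : n = 0 := by
    by_contra hne
    apply h
    rw [hn] at h1
    exact (dvd_pow_self s hne).trans h1
  rw [h2, pow_zero, card_eq_one] at hn
  intro x hx
  have h3 : ρ x ∈ R.map ρ := ⟨x, hx, rfl⟩
  rw [hn, mem_bot] at h3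
  exact h3

theorem main (hZ : center G = ⊥)
    (hNS : {c : ℕ | ∃ r : ℕ, r.Prime ∧ r ∣ Nat.card G ∧ c = Nat.card (Sylow r G)} =
      ({18, 136, 153} : Set ℕ)) :
    ∃ ρ : G →* Perm X, Function.Injective ρ ∧ Good ρ.range := by
  obtain ⟨⟨h17, -⟩, ⟨h3, -⟩, ⟨h2, -⟩, hprimes⟩ := facts hNS
  obtain ⟨ρ, hgood, hker⟩ := exists_rho h17
  refine ⟨ρ, ?_, hgood⟩
  have hF17 : Fact (Nat.Prime 17) := ⟨by norm_num⟩
  have hF3 : Fact (Nat.Prime 3) := ⟨Nat.prime_three⟩
  have hF2 : Fact (Nat.Prime 2) := ⟨Nat.prime_two⟩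
  set N := ρ.ker with hN
  have hNr : ρ.rangeRestrict.ker = N := ρ.ker_rangeRestrict
  obtain ⟨E, hE, hEf, S, hEc, hSn, ⟨e⟩⟩ := hgood.exists_psl
  have k2 : ∀ P : Sylow 2 G, N ≤ normalizer ((P : Subgroup G) : Set G) := by
    intro P
    rw [← hNr]
    apply SylKer.ker_le_normalizer _ ρ.rangeRestrict_surjective P
    rw [h2]
    exact PSL17.sylow_two_bound hEc S e
  have k3 : ∀ P : Sylow 3 G, N ≤ normalizer ((P : Subgroup G) : Set G) := by
    intro P
    rw [← hNr]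
    apply SylKer.ker_le_normalizer _ ρ.rangeRestrict_surjective P
    rw [h3]
    exact PSL17.sylow_three_bound hEc S e
  have k17 : ∀ P : Sylow 17 G, N ≤ normalizer ((P : Subgroup G) : Set G) := by
    intro P g hg
    exact Sylow.smul_eq_iff_mem_normalizer.mp ((hker g).mp hg P)
  have hcard : Nat.card ρ.range ∣ 4896 := by
    rw [hgood.card_eq]
    have := hgood.card_T_dvd
    calc 306 * Nat.card (T ρ.range) ∣ 306 * 16 := Nat.mul_dvd_mul_left _ this
      _ = 4896 := by norm_num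
  have h5 : ¬ 5 ∣ Nat.card G := by
    intro h5
    have hF5 : Fact (Nat.Prime 5) := ⟨Nat.prime_five⟩
    have hc : Nat.card (Sylow 5 G) = 136 := by
      rcases hprimes 5 Nat.prime_five h5 with h | h | h | h | h
      · omega
      · omega
      · omega
      · exact h.2
      · omega
    obtain ⟨R, hR⟩ := exists_syl 5 (⊤ : Subgroup G)
    have hRN : R ≤ N := le_ker_of_not_dvd ρ (fun h => absurd (h.trans hcard) (by norm_num)) hR.2.1
    obtain ⟨Q, hQ⟩ := exists_syl 2 (⊤ : Subgroup G)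
    obtain ⟨Q', hQ'⟩ := hQ.toSylow
    obtain ⟨hKn, hK⟩ := SylKer.inf_normal (N := N) hQ (by rw [← hQ']; exact k2 Q')
    obtain ⟨m, i, hm, hmi, hi⟩ := SylKer.sylow_count (s := 5) (t := 2) (by norm_num) hK
      (hR.of_le hRN le_top)
    rw [index_normalizer_eq hR, hc] at hmi
    have hi8 : i < 8 := by
      by_contra hge
      have h6 : 2 ^ 8 ≤ 2 ^ i := Nat.pow_le_pow_right (by norm_num) (by omega)
      have h7 : 2 ^ i ≤ 136 := Nat.le_of_dvd (by norm_num) ⟨m, by rw [hmi]; ring⟩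
      omega
    have hi3 : i = 3 := by
      interval_cases i <;> omega
    rw [hi3] at hi
    exact absurd hi (by decide)
  have h19 : ¬ 19 ∣ Nat.card G := by
    intro h19
    have hF19 : Fact (Nat.Prime 19) := ⟨by norm_num⟩
    have hc : Nat.card (Sylow 19 G) = 153 := by
      rcases hprimes 19 (by norm_num) h19 with h | h | h | h | h
      · omega
      · omega
      · omega
      · omega
      · exact h.2
    obtain ⟨R, hR⟩ := exists_syl 19 (⊤ : Subgroup G)
    have hRN : R ≤ N := le_ker_of_not_dvd ρ (fun h => absurd (h.trans hcard) (by norm_num)) hR.2.1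
    obtain ⟨Q, hQ⟩ := exists_syl 3 (⊤ : Subgroup G)
    obtain ⟨Q', hQ'⟩ := hQ.toSylow
    obtain ⟨hKn, hK⟩ := SylKer.inf_normal (N := N) hQ (by rw [← hQ']; exact k3 Q')
    obtain ⟨m, i, hm, hmi, hi⟩ := SylKer.sylow_count (s := 19) (t := 3) (by norm_num) hK
      (hR.of_le hRN le_top)
    rw [index_normalizer_eq hR, hc] at hmi
    have hi8 : i < 5 := by
      by_contra hge
      have h6 : 3 ^ 5 ≤ 3 ^ i := Nat.pow_le_pow_right (by norm_num) (by omega)
      have h7 : 3 ^ i ≤ 153 := Nat.le_of_dvd (by norm_num) ⟨m, by rw [hmi]; ring⟩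
      omega
    have hi3 : i = 2 := by
      interval_cases i <;> omega
    rw [hi3] at hi
    exact absurd hi (by decide)
  rw [← MonoidHom.ker_eq_bot_iff]
  apply SylKer.eq_bot_of_center hZ
  intro r hr hrG
  rcases hprimes r hr hrG with h | h | h | h | h
  · subst h
    obtain ⟨P⟩ : Nonempty (Sylow 2 G) := inferInstance
    exact ⟨P, isSyl_top_iff P, k2 P⟩
  · subst h
    obtain ⟨P⟩ : Nonempty (Sylow 3 G) := inferInstance
    exact ⟨P, isSyl_top_iff P, k3 P⟩
  · subst h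
    obtain ⟨P⟩ : Nonempty (Sylow 17 G) := inferInstance
    exact ⟨P, isSyl_top_iff P, k17 P⟩
  · obtain ⟨rfl, -⟩ := h
    exact absurd hrG h5
  · obtain ⟨rfl, -⟩ := h
    exact absurd hrG h19

end Cfsg.Agent.Lib.Deg18
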