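import Cfsg.Agent.Lib.DerHD

/-!
Heisenberg data in characteristic two: `[W, T, T'] = 0` (helper59).
-/

set_option autoImplicit false

namespace Cfsg.Agent.Lib.DerHD

open Module Subgroup Cfsg Cfsg.Agent.Lib.SympFix Cfsg.Agent.Lib.DerZn
open scoped commutatorElement

universe u v w t

section

variable {X : Type u} [Group X] {k : Type v} [Field k] [hk2 : CharP k 2] {W : Type w}
    [AddCommGroup W] [Module k W] {q : ℕ} {M : Type t} [AddCommGroup M] [Module (ZMod q) M]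
    {H : X →* Module.End k W} {ρ : X →* Module.End (ZMod q) M} {O : M → Module.End k W}
    {e : M → M → k} {T : Subgroup X} {W' : Submodule k W} {M' : Submodule (ZMod q) M}

omit hk2 in
theorem conj_comm_mem {T : Subgroup X} {b g : X} (hb : b ∈ ⁅T, T⁆) (hg : g ∈ T) :
    g * b * g⁻¹ ∈ ⁅T, T⁆ := by
  have h1 : ⁅T, T⁆ ≤ (⁅T, T⁆).comap (MulAut.conj g).toMonoidHom := by
    rw [commutator_le]
    intro a ha c hc
    rw [mem_comap, map_commutatorElement]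
    exact commutator_mem_commutator (mul_mem (mul_mem hg ha) (inv_mem hg))
      (mul_mem (mul_mem hg hc) (inv_mem hg))
  exact h1 hb

omit hk2 in
/-- commuting operators on `M'` -/
theorem Cf.comm_one (C : Cf H ρ O e T W' M') {x y : X} (hx : x ∈ T) (hy : y ∈ T)
    (h : ∀ m ∈ M', ρ x (ρ y m) = ρ y (ρ x m)) : ∀ m ∈ M', ρ ⁅x, y⁆ m = m := by
  intro m hm
  rw [commutatorElement_def, ρmul, ρmul, ρmul]
  have h1 : ρ x⁻¹ (ρ y⁻¹ m) ∈ M' := C.tM _ (inv_mem hx) _ (C.tM _ (inv_mem hy) _ hm)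
  rw [h _ h1, ← ρmul x x⁻¹, mul_inv_cancel, map_one, Module.End.one_apply, ← ρmul,
    mul_inv_cancel, map_one, Module.End.one_apply]

omit hk2 in
/-- commuting operators on `M'`, converse -/
theorem Cf.one_comm (C : Cf H ρ O e T W' M') {x y : X} (hx : x ∈ T) (hy : y ∈ T)
    (h : ∀ m ∈ M', ρ ⁅x, y⁆ m = m) : ∀ m ∈ M', ρ x (ρ y m) = ρ y (ρ x m) := by
  intro m hm
  have h1 : x * y = ⁅x, y⁆ * (y * x) := by rw [commutatorElement_def]; group
  rw [← ρmul, ← ρmul, h1, ρmul]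
  apply h
  rw [ρmul]
  exact C.tM _ hy _ (C.tM _ hx _ hm)

omit hk2 in
/-- if `H x = H y` on `W'` then `ρ x = ρ y` on `M'`. -/
theorem Cf.eq_of (h : HD H ρ O e) (C : Cf H ρ O e T W' M') {x y : X} (hx : x ∈ T) (hy : y ∈ T)
    (hxy : ∀ w ∈ W', H x w = H y w) : ∀ m ∈ M', ρ x m = ρ y m := by
  have h1 : ∀ w ∈ W', H (y⁻¹ * x) w = w := by
    intro w hw
    rw [Hmul, hxy w hw, ← Hmul, inv_mul_cancel, map_one, Module.End.one_apply]
  have h2 := h.triv C.io C.ne C.nd (C.tM _ (mul_mem (inv_mem hy) hx)) h1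
  intro m hm
  have h3 := h2 m hm
  rw [ρmul] at h3
  have h4 := congrArg (ρ y) h3
  rwa [← ρmul, mul_inv_cancel, map_one, Module.End.one_apply] at h4

theorem R1 (h : HD H ρ O e) (C : Cf H ρ O e T W' M') (hZ : W' ≤ Zn H 1 T) :
    ∀ x ∈ T, ∀ y ∈ T, (∀ m ∈ M', ρ ⁅x, y⁆ m = m) ∨ (∀ m ∈ M', ρ ⁅x, y⁆ m = ρ x (ρ x m)) := by
  have hbx : ∀ b ∈ ⁅T, T⁆, ∀ x ∈ T, ∀ w ∈ W', H b (H x w - w) = H x w - w := by
    intro b hb x hx w hw
    exact (mem_Zn_zero H).1 ((mem_Zn_succ H).1 (hZ hw) x hx) b hb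
  have hT : ∀ b ∈ ⁅T, T⁆, b ∈ T := fun b hb => comm_le_self T hb
  have hcomm : ∀ b ∈ ⁅T, T⁆, ∀ c ∈ ⁅T, T⁆, ∀ m ∈ M', ρ b (ρ c m) = ρ c (ρ b m) := by
    intro b hb c hc
    have h1 : ∀ w ∈ W', H (b * c) w = H (c * b) w := by
      intro w hw
      have e1 := hbx b hb c (hT c hc) w hw
      have e2 := hbx c hc b (hT b hb) w hw
      rw [map_sub, sub_eq_iff_eq_add] at e1 e2
      rw [Hmul, Hmul, e1, e2]
      abel
    have h2 := C.eq_of h (mul_mem (hT b hb) (hT c hc)) (mul_mem (hT c hc) (hT b hb)) h1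
    intro m hm
    have h3 := h2 m hm
    rwa [ρmul, ρmul] at h3
  have hsq : ∀ b ∈ ⁅T, T⁆, ∀ m ∈ M', ρ b (ρ b m) = m := fun b hb =>
    C.sq_of h (hT b hb) (hbx b hb b (hT b hb))
  have hcen : ∀ b ∈ ⁅T, T⁆, (∃ m ∈ M', ρ b m ≠ m) → ∀ g ∈ T, ∀ m ∈ M', ρ b (ρ g m) = ρ g (ρ b m) := by
    intro b hb hbne g hg
    set b' : X := g * b * g⁻¹ with hb'
    have hb'T : b' ∈ ⁅T, T⁆ := conj_comm_mem hb hg
    have hconj : ∀ m, ρ b' (ρ g m) = ρ g (ρ b m) := by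
      intro m
      rw [← ρmul, ← ρmul, hb']
      congr 2
      group
    rcases C.claimB h (hT b' hb'T) (hT b hb) (hsq b hb) (hsq b' hb'T) (hcomm b hb b' hb'T) hbne
      (hbx b hb b' (hT b' hb'T)) (hbx b hb b (hT b hb)) with h1 | h1
    · exfalso
      obtain ⟨m, hm, hbm⟩ := hbne
      apply hbm
      have h2 := hconj m
      rw [h1 _ (C.tM g hg m hm)] at h2
      have h3 := congrArg (ρ g⁻¹) h2
      rw [← ρmul, ← ρmul, inv_mul_cancel, map_one, Module.End.one_apply,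
        Module.End.one_apply] at h3
      exact h3.symm
    · intro m hm
      rw [← h1 _ (C.tM g hg m hm), hconj]
  intro x hx y hy
  by_cases hb1 : ∀ m ∈ M', ρ ⁅x, y⁆ m = m
  · exact Or.inl hb1
  right
  push Not at hb1
  have hb : ⁅x, y⁆ ∈ ⁅T, T⁆ := commutator_mem_commutator hx hy
  have U : Ub H ρ T W' M' ⁅x, y⁆ := ⟨hT _ hb, hbx _ hb, hcen _ hb hb1, hb1⟩
  rcases U.sq h C hx with h1 | h1
  · exfalso
    have h3 : ∀ m ∈ M', ρ x (ρ y m) = ρ y (ρ x m) := by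
      rcases U.two h C hx h1 with h2 | h2
      · intro m hm
        rw [h2 _ (C.tM y hy m hm), h2 m hm]
      · intro m hm
        rw [h2 _ (C.tM y hy m hm), h2 m hm, U.hc y hy m hm]
    obtain ⟨m, hm, hbm⟩ := hb1
    exact hbm (C.comm_one hx hy h3 m hm)
  · intro m hm
    rw [h1 m hm]

end

end Cfsg.Agent.Lib.DerHD
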