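import Cfsg.Agent.Lib.DerLoc
import Cfsg.Agent.Lib.DerR1
import Cfsg.Agent.Lib.BryFin2

/-!
Derived length and `2`-length: the commutators in the relevant chief factors (helper59).
-/

set_option autoImplicit false
set_option linter.unusedSectionVars false

namespace Cfsg.Agent.Lib.DerFin

open Module Subgroup Cfsg Cfsg.Agent.Lib.WielandtFix Cfsg.Agent.Lib.SympFix Cfsg.Agent.Lib.WtGroup
  Cfsg.Agent.Lib.Weights Cfsg.Agent.Lib.CoprimeAction Cfsg.Agent.Lib.CoprimeAction2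
  Cfsg.Agent.Lib.SubgroupTools Cfsg.Agent.Lib.Ward Cfsg.Agent.Lib.FpfPQ3 Cfsg.Agent.Lib.BryLoc
  Cfsg.Agent.Lib.BryFin Cfsg.Agent.Lib.DerZn Cfsg.Agent.Lib.DerHD
open scoped commutatorElement

universe u v w

section Main

variable {G : Type u} [Group G] [Finite G] {k : Type v} {W : Type w}
    [Field k] [IsAlgClosed k] [CharP k 2] [AddCommGroup W] [Module k W] [FiniteDimensional k W]

theorem comm_mem_of_map {X : Subgroup G} {K : Subgroup G} (hK : K ≤ X) (n : ℕ) {g : G}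
    (hg : g ∈ dser n K) (hgX : g ∈ X) : (⟨g, hgX⟩ : X) ∈ dser n (K.subgroupOf X) := by
  have h1 : (dser n (K.subgroupOf X)).map X.subtype = dser n K := by
    rw [dser_map, subgroupOf_map_subtype, inf_eq_left.2 hK]
  rw [← h1] at hg
  obtain ⟨g', hg', he⟩ := hg
  have h2 : g' = ⟨g, hgX⟩ := Subtype.ext he
  rw [← h2]
  exact hg'

/-- the local conclusion -/
theorem local_concl {H : G →* Module.End k W} {q : ℕ} [hqf : Fact q.Prime] {Q R X : Subgroup G}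
    {μ : G → k} {v₀ : W} {M : Type u} [AddCommGroup M] [Module (ZMod q) M]
    {ρ : Representation (ZMod q) X M} {π : Q → M} {e : M → M → k}
    (L : Loc H q Q R X μ v₀ ρ π e) {n j : ℕ} (hj : j ≤ n + 1) {S : Subgroup G}
    (hS2 : IsPGroup 2 S) (hSX : dser j S ≤ X)
    (hZ : ∀ v ∈ wtSub H ⁅Q, Q⁆ μ, v ∈ Zn H (n + 1 - j) (dser j S)) {x t : G}
    (hxX : x ∈ X) (hx : x ∈ dser n S) (ht : t ∈ dser n S) (hθX : ⁅x, t⁆ ∈ X) :
    (∀ m, ρ ⟨⁅x, t⁆, hθX⟩ m = m) ∨ ∀ m, ρ ⟨⁅x, t⁆, hθX⟩ m = ρ ⟨x, hxX⟩ (ρ ⟨x, hxX⟩ m) := by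
  have h := hd_of_loc L
  set T : Subgroup X := (dser j S).subgroupOf X with hT
  have hTm : T.map X.subtype = dser j S := by
    rw [hT, subgroupOf_map_subtype, inf_eq_left.2 hSX]
  have hT2 : IsPGroup 2 T := (hS2.to_le (dser_le j S)).comap_subtype
  have C := cf_of_loc L hT2
  have hZT : ⊤ ≤ Zn (HX L) (n + 1 - j) T := by
    apply Zn_HX L
    rw [hTm]
    exact hZ
  have hθ : ⁅x, t⁆ ∈ dser (n + 1) S := by
    rw [dser_succ']
    exact commutator_mem_commutator hx ht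
  obtain ⟨r, hr⟩ : ∃ r, n + 1 - j = r := ⟨_, rfl⟩
  rw [hr] at hZT
  have hjr : j + r = n + 1 := by omega
  have hθr : (⟨⁅x, t⁆, hθX⟩ : X) ∈ dser r T := by
    apply comm_mem_of_map hSX r
    rw [dser_add, hjr]
    exact hθ
  match r, hjr, hZT, hθr with
  | 0, hjr, hZT, hθr =>
    left
    intro m
    exact h.triv C.io C.ne C.nd (fun _ _ => trivial)
      (fun w _ => (mem_Zn_zero _).1 (hZT (Submodule.mem_top (x := w))) _ hθr) m trivial
  | 1, hjr, hZT, hθr =>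
    have hjn : j = n := by omega
    subst hjn
    have htX : t ∈ X := hSX ht
    have he : (⟨⁅x, t⁆, hθX⟩ : X) = ⁅(⟨x, hxX⟩ : X), ⟨t, htX⟩⁆ := rfl
    rw [he]
    rcases R1 h C hZT ⟨x, hxX⟩ hx ⟨t, htX⟩ ht with h1 | h1
    · exact Or.inl fun m => h1 m trivial
    · exact Or.inr fun m => h1 m trivial
  | r + 2, hjr, hZT, hθr =>
    left
    intro m
    exact Bmain h r C hZT _ hθr m trivial

theorem der_mem (hsol : Group.IsSolvable G) (hO2 : pCore 2 G = ⊥) (H : G →* Module.End k W)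
    (hinj : ∀ x, H x = 1 → x = 1) {n : ℕ}
    (hZ : ∀ S : Subgroup G, IsPGroup 2 S → ∀ v, v ∈ Zn H (n + 1) S)
    {N C Z₁ : Subgroup G} (hC2 : IsPGroup 2 C) (hCN : C ≤ N) (hNC : N ≤ normalizer (C : Set G))
    (hmax : ∀ C₀ : Subgroup G, C₀ ≤ C → N ≤ normalizer (C₀ : Set G) → C₀ ≠ C → C₀ ≤ Z₁)
    (hstr : (∀ c ∈ C, c * c = 1) ∨ ((∀ c ∈ C, (∀ d ∈ C, c * d = d * c) → c ∈ Z₁) ∧
      (∀ c ∈ C, c ^ 4 = 1) ∧ ∀ c ∈ C, ∀ d ∈ C, c * c * d = d * (c * c)))
    {S : Subgroup G} (hS2 : IsPGroup 2 S) (hSN : S ≤ N)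
    {x t : G} (hx : x ∈ C) (hxS : x ∈ dser n S) (ht : t ∈ dser n S) : ⁅x, t⁆ ∈ Z₁ := by
  classical
  by_contra hθ
  have h2f : Fact (Nat.Prime 2) := ⟨Nat.prime_two⟩
  set θ : G := ⁅x, t⁆ with hθdef
  have htN : t ∈ N := hSN (dser_le _ _ ht)
  have hθC : θ ∈ C := by
    have h1 : θ = x * (t * x⁻¹ * t⁻¹) := by rw [hθdef, commutatorElement_def]; group
    rw [h1]
    exact mul_mem hx ((mem_normalizer_iff.1 (hNC htN) _).1 (inv_mem hx))
  have hθS : θ ∈ dser (n + 1) S := by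
    rw [dser_succ']
    exact commutator_mem_commutator hxS ht
  -- the normal closure of `dser (n + 1) S`
  set A : Subgroup G := closure {s | ∃ a ∈ N, ∃ u ∈ dser (n + 1) S, a * u * a⁻¹ = s} with hA
  have hNA : N ≤ normalizer (A : Set G) := by
    rw [le_normalizer_iff]
    intro n' hn s hs
    have h1 : A ≤ A.comap (MulAut.conj n').toMonoidHom := by
      rw [hA, closure_le]
      rintro _ ⟨a, ha, u, hu, rfl⟩
      change n' * (a * u * a⁻¹) * n'⁻¹ ∈ A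
      exact subset_closure ⟨n' * a, mul_mem hn ha, u, hu, by group⟩
    exact h1 hs
  have hθA : θ ∈ A := subset_closure ⟨1, one_mem _, θ, hθS, by group⟩
  have hinfnorm : ∀ K L : Subgroup G, N ≤ normalizer (K : Set G) → N ≤ normalizer (L : Set G) →
      N ≤ normalizer ((K ⊓ L : Subgroup G) : Set G) := by
    intro K L hK hL
    rw [le_normalizer_iff]
    intro n hn x hx
    exact ⟨(mem_normalizer_iff.1 (hK hn) x).1 hx.1, (mem_normalizer_iff.1 (hL hn) x).1 hx.2⟩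
  have hcentnorm : ∀ K : Subgroup G, N ≤ normalizer (K : Set G) →
      N ≤ normalizer ((centralizer (K : Set G) : Subgroup G) : Set G) := by
    intro K hK
    rw [le_normalizer_iff]
    intro n hn x hx
    refine mem_centralizer_iff.2 fun y hy => ?_
    have h2 : n⁻¹ * y * n ∈ K := conj_mem_of_normalizer (hK hn) hy
    have h3 := mem_centralizer_iff.1 hx _ h2
    calc y * (n * x * n⁻¹) = n * ((n⁻¹ * y * n) * x) * n⁻¹ := by group
      _ = n * (x * (n⁻¹ * y * n)) * n⁻¹ := by rw [h3]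
      _ = n * x * n⁻¹ * y := by group
  have hfull : ∀ K : Subgroup G, N ≤ normalizer (K : Set G) → θ ∈ K → C ≤ K := by
    intro K hK hθK
    have h1 : C ⊓ K = C := by
      by_contra hne
      exact hθ (hmax (C ⊓ K) inf_le_left (hinfnorm C K hNC hK) hne ⟨hθC, hθK⟩)
    exact inf_eq_left.1 h1
  have hCA : C ≤ A := hfull A hNA hθA
  -- conjugates
  have hconj : ∀ a ∈ N, ∀ u ∈ dser (n + 1) S, ∃ T : Subgroup G, IsPGroup 2 T ∧ T ≤ N ∧
      a * u * a⁻¹ ∈ dser (n + 1) T := by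
    intro a ha u hu
    refine ⟨S.map (MulAut.conj a).toMonoidHom, hS2.map _, ?_, ?_⟩
    · rintro _ ⟨s, hs, rfl⟩
      exact mul_mem (mul_mem ha (hSN hs)) (inv_mem ha)
    · rw [← dser_map]
      exact ⟨u, hu, rfl⟩
  have hAstab : ∀ (D : Subgroup G), N ≤ normalizer (D : Set G) → (Nat.card D : k) ≠ 0 →
      ∀ (χ : G → k) (v : W), v ≠ 0 → IsWt H D χ v → A ≤ stab D χ := by
    intro D hND hcD χ v hv hχ
    rw [hA, closure_le]
    rintro _ ⟨a, ha, u, hu, rfl⟩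
    obtain ⟨T, hT2, hTN, huT⟩ := hconj a ha u hu
    obtain ⟨j, hj, h1, -⟩ := wt_main' H hcD (U₀ := Set.univ) ⟨v, trivial, hv, hχ⟩ (n + 1) T hT2
      (hTN.trans hND) (fun v _ _ => hZ T hT2 v)
    exact h1 (dser_antitone hj T huT)
  have hAcent : ∀ (r : ℕ) (D : Subgroup G), r.Prime → r ≠ 2 → IsPGroup r D →
      N ≤ normalizer (D : Set G) → (∀ x ∈ D, ∀ y ∈ D, Commute x y) →
      A ≤ centralizer (D : Set G) := by
    intro r D hr hr2 hD hND hab
    have hcD : (Nat.card D : k) ≠ 0 := BryHeis.card_ne_zero' (kq_ne hr hr2) hr hD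
    have hpow : ∀ x ∈ D, x ^ Nat.card D = 1 := by
      intro x hx
      have h1 : (⟨x, hx⟩ : D) ^ Nat.card D = 1 := pow_card_eq_one'
      exact congrArg (Subtype.val : D → G) h1
    have hAD : A ≤ normalizer (D : Set G) := by
      rw [hA, closure_le]
      rintro _ ⟨a, ha, u, hu, rfl⟩
      exact hND (mul_mem (mul_mem ha (hSN (dser_le _ _ hu))) (inv_mem ha))
    rw [← commutator_eq_bot_iff_le_centralizer, commutator_comm, eq_bot_iff]
    intro g hg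
    rw [mem_bot]
    have hgD : g ∈ D := (le_normalizer_iff_commutator_le_left.mp hAD) hg
    apply hinj g
    ext w
    refine eq_on_of_weights H ⊤ D (fun _ _ _ _ => trivial) ?_ (Nat.card D) hcD hpow
      (H g) ?_ w trivial
    · intro x hx z hz u _
      rw [← Module.End.mul_apply, ← Module.End.mul_apply, ← map_mul, ← map_mul,
        (hab x hx z hz).eq]
    · intro v₀ _ χ hv₀ hχ
      have h3 := commutator_le_kerWt hχ hv₀ (hAstab D hND hcD χ v₀ hv₀ hχ) hg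
      rw [hχ g hgD, h3.2, one_smul]
  -- the witnesses
  obtain ⟨B, z, hBC, hNB, hzB, hz1, hzQ, hzcase⟩ : ∃ (B : Subgroup G) (z : G), B ≤ C ∧
      N ≤ normalizer (B : Set G) ∧ z ∈ B ∧ z ≠ 1 ∧
      (∀ Q : Subgroup G, N ≤ normalizer (Q : Set G) → (∀ y ∈ Q, Commute z y) →
        B ≤ centralizer (Q : Set G)) ∧
      (((∀ c ∈ C, c * c = 1) ∧ z = θ) ∨ ((∀ c ∈ C, c ^ 4 = 1) ∧
        (∀ c ∈ C, ∀ d ∈ C, c * c * d = d * (c * c)) ∧ ∃ c ∈ C, z = ⁅θ, c⁆)) := by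
    rcases hstr with h1 | ⟨h1, h2, h3⟩
    · refine ⟨C, θ, le_rfl, hNC, hθC, ?_, ?_, Or.inl ⟨h1, rfl⟩⟩
      · intro h
        apply hθ
        rw [h]; exact one_mem _
      · intro Q hNQ hQ
        exact hfull _ (hcentnorm Q hNQ) (mem_centralizer_iff.2 fun y hy => (hQ y hy).eq.symm)
    · obtain ⟨c, hc, hne⟩ : ∃ c ∈ C, θ * c ≠ c * θ := by
        by_contra hcon
        push Not at hcon
        exact hθ (h1 θ hθC hcon)
      set z : G := ⁅θ, c⁆ with hz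
      have hzC : z ∈ C := by
        rw [hz, commutatorElement_def]
        exact mul_mem (mul_mem (mul_mem hθC hc) (inv_mem hθC)) (inv_mem hc)
      set B : Subgroup G := closure {s | ∃ n ∈ N, n * z * n⁻¹ = s} with hB
      have hNB : N ≤ normalizer (B : Set G) := by
        rw [le_normalizer_iff]
        intro n hn s hs
        have h4 : B ≤ B.comap (MulAut.conj n).toMonoidHom := by
          rw [hB, closure_le]
          rintro _ ⟨m, hm, rfl⟩
          change n * (m * z * m⁻¹) * n⁻¹ ∈ B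
          refine subset_closure ⟨n * m, mul_mem hn hm, by group⟩
        exact h4 hs
      refine ⟨B, z, ?_, hNB, subset_closure ⟨1, one_mem _, by group⟩, ?_, ?_,
        Or.inr ⟨h2, h3, c, hc, rfl⟩⟩
      · rw [hB, closure_le]
        rintro _ ⟨m, hm, rfl⟩
        exact (mem_normalizer_iff.1 (hNC hm) z).1 hzC
      · intro h
        exact hne (commutatorElement_eq_one_iff_mul_comm.1 h)
      · intro Q hNQ hQ
        rw [hB, closure_le]
        rintro _ ⟨m, hm, rfl⟩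
        have h4 : z ∈ centralizer (Q : Set G) :=
          mem_centralizer_iff.2 fun y hy => (hQ y hy).eq.symm
        exact (mem_normalizer_iff.1 (hcentnorm Q hNQ hm) z).1 h4
  have hBN : B ≤ N := hBC.trans hCN
  have hB2 : IsPGroup 2 B := hC2.to_le hBC
  obtain ⟨r, Q, hr, hr2, hQr, hNQ, hQB, hDc, hQq, hCB, hzQ', hmin⟩ :=
    exists_Q hsol hO2 hB2 hNB hBN hzB hz1 hzQ
  have hrf := Fact.mk hr
  have hDQ : ⁅Q, Q⁆ ≤ Q := le_normalizer_iff_commutator_le_left.mp le_normalizer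
  by_cases hDne : ⁅Q, Q⁆ = ⊥
  · apply hzQ'
    have hab : ∀ x ∈ Q, ∀ y ∈ Q, Commute x y := by
      intro x hx y hy
      have h1 : ⁅x, y⁆ ∈ ⁅Q, Q⁆ := commutator_mem_commutator hx hy
      rw [hDne, mem_bot] at h1
      exact commutatorElement_eq_one_iff_commute.1 h1
    intro y hy
    exact (mem_centralizer_iff.1 (hAcent r Q hr hr2 hQr hNQ hab (hCA (hBC hzB))) y hy).symm
  obtain ⟨v₀, μ, hv₀, hμ, hμne, hzμ⟩ := exists_mu H hinj hBN hB2 hzB hr hr2 hQr hNQ hDc hDne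
    hzQ' hmin
  have hμ1 : μ 1 = 1 := isWt_one hμ hv₀
  obtain ⟨R, hR⟩ := SympSec.exists_radical (Q := Q) (Z := ⁅Q, Q⁆) hDc le_rfl hμ1
    (fun x hx y hy => isWt_mul hμ hv₀ hx hy)
  have hRQ : R ≤ Q := fun x hx => ((hR x).1 hx).1
  have hND : N ≤ normalizer ((⁅Q, Q⁆ : Subgroup G) : Set G) :=
    Lib.H32PSolv.le_normalizer_commutator hNQ hNQ
  have hcD : (Nat.card (⁅Q, Q⁆ : Subgroup G) : k) ≠ 0 :=
    BryHeis.card_ne_zero' (kq_ne hr hr2) hr (hQr.to_le hDQ)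
  have hcR : (Nat.card R : k) ≠ 0 := BryHeis.card_ne_zero' (kq_ne hr hr2) hr (hQr.to_le hRQ)
  have hAD : A ≤ centralizer ((⁅Q, Q⁆ : Subgroup G) : Set G) :=
    hAcent r _ hr hr2 (hQr.to_le hDQ) hND (fun x hx y hy => (hDc y hy x (hDQ hx)))
  obtain ⟨X, M, i1, i2, i3, ρ, π, e, L⟩ := exists_loc (B := C) H hr2 hQr hDc hQq hv₀ hμ hμne
    (hCN.trans hNQ) (by
      intro t ht
      have hc := hAD (hCA ht)
      refine ⟨(centralizer_le_normalizer _) hc, fun x hx => ?_⟩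
      have h1 := mem_centralizer_iff.1 hc x hx
      rw [mul_assoc, h1, inv_mul_cancel_left])
    (IsPGroup.coprime_card_of_ne 2 r hr2.symm _ _ hC2 hQr)
    (by
      refine le_trans (inf_le_inf_left Q ?_) hCB
      exact centralizer_le hBC) hR (by
      intro v χ hv hvμ hχ
      refine hCA.trans ?_
      rw [hA, closure_le]
      rintro _ ⟨a, ha, u, hu, rfl⟩
      obtain ⟨T, hT2, hTN, huT⟩ := hconj a ha u hu
      obtain ⟨j, hj, h1, h2⟩ := wt_main' H hcD (U₀ := Set.univ) ⟨v₀, trivial, hv₀, hμ⟩ (n + 1) T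
        hT2 (hTN.trans hND) (fun v _ _ => hZ T hT2 v)
      obtain ⟨-, -, hTR⟩ := SympSec.radical_props (X := dser j T) hDQ hDc le_rfl hμ1
        ((dser_le j T).trans (hTN.trans hNQ)) h1 hR
      obtain ⟨j', hj', h3, -⟩ := wt_main' H hcR (U₀ := (wtSub H ⁅Q, Q⁆ μ : Set W))
        ⟨v, hvμ, hv, hχ⟩ (n + 1 - j) (dser j T) (hT2.to_le (dser_le j T)) hTR
        (fun v hv _ => h2 v trivial hv)
      apply h3
      rw [dser_add]
      exact dser_antitone (by omega) T huT)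
  have hCX : C ≤ X := by
    intro c hc
    have hc' := hAD (hCA hc)
    refine (L.hX c).2 ⟨hNQ (hCN hc), (centralizer_le_normalizer _) hc', fun x hx => ?_⟩
    have h1 := mem_centralizer_iff.1 hc' x hx
    rw [mul_assoc, h1, inv_mul_cancel_left]
  have hzX : z ∈ X := hCX (hBC hzB)
  -- `z` acts nontrivially
  have hzM : ¬ ∀ v, ρ ⟨z, hzX⟩ v = v := by
    intro hcon
    apply hzμ
    intro y hy y' hy'
    have hn : z * y * z⁻¹ ∈ Q := (mem_normalizer_iff.1 (hNQ (hBN hzB)) y).1 hy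
    have hπ1 : π 1 = 0 := (L.hker 1).2 (one_mem _)
    have h1 := L.hρ ⟨z, hzX⟩ ⟨y, hy⟩ ⟨z * y * z⁻¹, hn⟩ rfl
    rw [hcon] at h1
    have h2 : π (⟨z * y * z⁻¹, hn⟩ * ⟨y, hy⟩⁻¹) = 0 := by
      rw [L.hadd, π_inv L, h1, add_neg_cancel]
    have h3 : ⁅z, y⁆ ∈ R := (L.hker _).1 h2
    exact ((hR _).1 h3).2 y' hy'
  have hθX : θ ∈ X := hCX hθC
  obtain ⟨j, hj, h1, h2⟩ := wt_main' H hcD (U₀ := Set.univ) ⟨v₀, trivial, hv₀, hμ⟩ (n + 1) S
    hS2 (hSN.trans hND) (fun v _ _ => hZ S hS2 v)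
  have hSX : dser j S ≤ X := fun g hg => (L.hX g).2 ⟨hNQ (hSN (dser_le _ _ hg)), h1 hg⟩
  have hxX : x ∈ X := hCX hx
  have hxx : ∀ m, ρ ⟨x, hxX⟩ (ρ ⟨x, hxX⟩ m) = ρ (⟨x, hxX⟩ * ⟨x, hxX⟩) m := fun m => by
    rw [map_mul]; rfl
  have hloc := local_concl L hj hS2 hSX (fun v hv => h2 v trivial hv) hxX hxS ht hθX
  rcases hzcase with ⟨hc, rfl⟩ | ⟨hc4, hcc, c, hc, rfl⟩
  · apply hzM
    rcases hloc with h3 | h3
    · exact h3
    · intro v
      have h4 : (⟨x, hxX⟩ * ⟨x, hxX⟩ : X) = 1 := Subtype.ext (hc x hx)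
      rw [h3, hxx, h4, map_one]
      rfl
  · apply hzM
    have hmm : ∀ (a b : X) (v : M), ρ (a * b) v = ρ a (ρ b v) := fun a b v => by
      rw [map_mul]; rfl
    have hcomm : ∀ v, ρ ⟨θ, hθX⟩ (ρ ⟨c, hCX hc⟩ v) = ρ ⟨c, hCX hc⟩ (ρ ⟨θ, hθX⟩ v) := by
      intro v
      rcases hloc with h3 | h3
      · rw [h3, h3]
      · rw [h3, h3, hxx, hxx, ← hmm, ← hmm]
        congr 2
        apply Subtype.ext
        exact hcc x hx c hc
    intro v
    have h4 : (⟨⁅θ, c⁆, hzX⟩ : X) = ⟨θ, hθX⟩ * ⟨c, hCX hc⟩ * (⟨θ, hθX⟩ : X)⁻¹ *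
        (⟨c, hCX hc⟩ : X)⁻¹ := rfl
    rw [h4, hmm, hmm, hmm, hcomm, ← hmm ⟨θ, hθX⟩, mul_inv_cancel, map_one]
    change ρ ⟨c, hCX hc⟩ (ρ (⟨c, hCX hc⟩ : X)⁻¹ v) = v
    rw [← hmm, mul_inv_cancel, map_one]
    rfl

end Main

end Cfsg.Agent.Lib.DerFin
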