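import Cfsg.Agent.Lib.CoprimeGen
import Cfsg.Agent.Lib.Cores3

/-!
Group theory of `2`-groups for Bryukhanova's derived length theorem (helper59).
-/

set_option autoImplicit false

namespace Cfsg.Agent.Lib.DerGrp

open Subgroup Cfsg
open scoped commutatorElement

universe u

theorem cyc_of_unique {G : Type u} [Group G] [Finite G] {A : Subgroup G} (hA : IsPGroup 2 A)
    (hab : ∀ a ∈ A, ∀ b ∈ A, a * b = b * a) {z : G} (hu : ∀ a ∈ A, a * a = 1 → a = 1 ∨ a = z) :
    ∃ a ∈ A, ∀ x ∈ A, x ∈ zpowers a := by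
  classical
  let _ : CommGroup A :=
    { (inferInstance : Group A) with
      mul_comm := fun a b => Subtype.ext (hab a a.2 b b.2) }
  have hc : IsCyclic A := by
    apply CoprimeGen.isCyclic_of_prime_card_le
    intro r hr
    by_cases h2 : r = 2
    · subst h2
      have h1 : ∀ x : (powMonoidHom 2 : A →* A).ker, ((x : A) : G) ∈ ({1, z} : Set G) := by
        rintro ⟨⟨x, hx⟩, hx2⟩
        have h3 : (⟨x, hx⟩ : A) ^ 2 = 1 := hx2
        have h4 : x * x = 1 := by rw [← pow_two]; exact congrArg Subtype.val h3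
        exact hu x hx h4
      have h2 : Nat.card (powMonoidHom 2 : A →* A).ker ≤ Nat.card ({1, z} : Set G) := by
        refine Nat.card_le_card_of_injective (fun x => (⟨((x : A) : G), h1 x⟩ : ({1, z} : Set G))) ?_
        intro a b h
        have h5 := congrArg (fun t : ({1, z} : Set G) => (t : G)) h
        exact Subtype.ext (Subtype.ext h5)
      refine h2.trans ?_
      rw [Nat.card_coe_set_eq]
      exact (Set.ncard_insert_le 1 {z}).trans (by rw [Set.ncard_singleton])
    · have hbot : (powMonoidHom r : A →* A).ker = ⊥ := by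
        rw [eq_bot_iff]
        intro x hx
        have h3 : x ^ r = 1 := hx
        obtain ⟨j, hj⟩ := hA x
        rw [Subgroup.mem_bot, ← orderOf_eq_one_iff]
        have hc : Nat.Coprime (2 ^ j) r :=
          Nat.Coprime.pow_left j ((Nat.coprime_primes Nat.prime_two hr).2 (Ne.symm h2))
        exact Nat.eq_one_of_dvd_coprimes hc (orderOf_dvd_of_pow_eq_one hj)
          (orderOf_dvd_of_pow_eq_one h3)
      rw [hbot, Subgroup.card_bot]
      exact hr.one_le
  obtain ⟨⟨a, ha⟩, hg⟩ := hc.exists_generator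
  refine ⟨a, ha, fun x hx => ?_⟩
  obtain ⟨i, hi⟩ := mem_zpowers_iff.1 (hg ⟨x, hx⟩)
  exact mem_zpowers_iff.2 ⟨i, congrArg Subtype.val hi⟩

/-- the commutator subgroup centralizes a cyclic normal subgroup. -/
theorem comm_centralizes {G : Type u} [Group G] {a : G} (hn : ∀ g : G, ∃ i : ℤ, g * a * g⁻¹ = a ^ i) :
    ∀ g ∈ ⁅(⊤ : Subgroup G), (⊤ : Subgroup G)⁆, g * a = a * g := by
  have h1 : ⁅(⊤ : Subgroup G), (⊤ : Subgroup G)⁆ ≤ centralizer ({a} : Set G) := by
    rw [commutator_le]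
    intro g _ h _
    rw [mem_centralizer_singleton_iff]
    obtain ⟨i, hi⟩ := hn g
    obtain ⟨i', hi'⟩ := hn g⁻¹
    obtain ⟨j, hj⟩ := hn h
    obtain ⟨j', hj'⟩ := hn h⁻¹
    have hconj : ∀ (x : G) (l n : ℤ), x * a * x⁻¹ = a ^ l → x * a ^ n * x⁻¹ = a ^ (l * n) := by
      intro x l n hx
      rw [← conj_zpow, hx, zpow_mul]
    have e1 : a ^ (j * j') = a := by
      rw [← hconj h j j' hj, ← hj']; group
    have e2 : a ^ (i * i') = a := by
      rw [← hconj g i i' hi, ← hi']; group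
    have e3 : ⁅g, h⁆ * a * ⁅g, h⁆⁻¹ = a := by
      have h3 : ⁅g, h⁆ * a * ⁅g, h⁆⁻¹ = g * (h * (g⁻¹ * (h⁻¹ * a * h⁻¹⁻¹) * g⁻¹⁻¹) * h⁻¹) * g⁻¹ := by
        rw [commutatorElement_def]; group
      rw [h3, hj', hconj g⁻¹ i' j' hi', hconj h j _ hj, hconj g i _ hi]
      have h4 : i * (j * (i' * j')) = (j * j') * (i * i') := by ring
      rw [h4, zpow_mul, e1, e2]
    exact mul_inv_eq_iff_eq_mul.1 e3
  intro g hg
  exact mem_centralizer_singleton_iff.1 (h1 hg)

/-- a normal subgroup of a `2`-group containing an involution not in `⟨z⟩` in its abelian normal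
subgroup. -/
theorem exists_e {G : Type u} [Group G] [Finite G] (hG : IsPGroup 2 G) {A : Subgroup G}
    (hAn : A.Normal) (hab : ∀ a ∈ A, ∀ b ∈ A, a * b = b * a) {z : G} (hz : z ∈ center G)
    (hz2 : z * z = 1) {a : G} (ha : a ∈ A) (haa : a * a = 1) (ha1 : a ≠ 1) (haz : a ≠ z) :
    ∃ e ∈ A, e ≠ 1 ∧ e ≠ z ∧ e * e = 1 ∧ ∀ g : G, g * e * g⁻¹ = e ∨ g * e * g⁻¹ = e * z := by
  have h2f : Fact (Nat.Prime 2) := ⟨Nat.prime_two⟩
  let V : Subgroup G :=
    { carrier := {x | x ∈ A ∧ x * x = 1}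
      one_mem' := ⟨one_mem _, one_mul 1⟩
      mul_mem' := by
        rintro x y ⟨hx, hx2⟩ ⟨hy, hy2⟩
        refine ⟨mul_mem hx hy, ?_⟩
        calc x * y * (x * y) = x * (y * x) * y := by group
          _ = x * (x * y) * y := by rw [hab y hy x hx]
          _ = (x * x) * (y * y) := by group
          _ = 1 := by rw [hx2, hy2, one_mul]
      inv_mem' := by
        rintro x ⟨hx, hx2⟩
        exact ⟨inv_mem hx, by rw [← mul_inv_rev, hx2, inv_one]⟩ }
  have hVn : V.Normal := by
    refine ⟨fun x hx g => ⟨hAn.conj_mem x hx.1 g, ?_⟩⟩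
    have : g * x * g⁻¹ * (g * x * g⁻¹) = g * (x * x) * g⁻¹ := by group
    rw [this, hx.2]; group
  have hzn : (zpowers z).Normal := by
    refine ⟨fun x hx g => ?_⟩
    obtain ⟨i, rfl⟩ := mem_zpowers_iff.1 hx
    have h1 : g * z ^ i * g⁻¹ = z ^ i := by
      have h2 : z ^ i ∈ center G := zpow_mem hz i
      rw [(mem_center_iff.1 h2 g)]; group
    rw [h1]
    exact zpow_mem (mem_zpowers z) i
  have hzmem : ∀ x ∈ zpowers z, x = 1 ∨ x = z := by
    intro x hx
    obtain ⟨i, rfl⟩ := mem_zpowers_iff.1 hx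
    rcases Int.even_or_odd i with ⟨j, rfl⟩ | ⟨j, rfl⟩
    · left
      rw [← two_mul, zpow_mul, zpow_ofNat, pow_two, hz2, one_zpow]
    · right
      rw [zpow_add, zpow_mul, zpow_ofNat, pow_two, hz2, one_zpow, one_mul, zpow_one]
  set K := V.map (QuotientGroup.mk' (zpowers z)) with hK
  have hKn : K.Normal := hVn.map _ (QuotientGroup.mk'_surjective _)
  have hK1 : K ≠ ⊥ := by
    intro h
    have h1 : QuotientGroup.mk' (zpowers z) a ∈ K := ⟨a, ⟨ha, haa⟩, rfl⟩
    rw [h, Subgroup.mem_bot] at h1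
    have h2 : a ∈ zpowers z := (QuotientGroup.eq_one_iff a).1 h1
    rcases hzmem a h2 with h3 | h3
    · exact ha1 h3
    · exact haz h3
  have hnil : Group.IsNilpotent (G ⧸ zpowers z) := (hG.to_quotient _).isNilpotent
  obtain ⟨_, ⟨e, he, rfl⟩, hec, he1⟩ := Cores.exists_mem_center_of_normal hKn hK1
  have hez : e ∉ zpowers z := by
    intro h
    exact he1 ((QuotientGroup.eq_one_iff e).2 h)
  refine ⟨e, he.1, ?_, ?_, he.2, ?_⟩
  · rintro rfl
    exact hez (one_mem _)
  · rintro rfl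
    exact hez (mem_zpowers _)
  · intro g
    have h1 := mem_center_iff.1 hec (QuotientGroup.mk' (zpowers z) g)
    have h2 : e⁻¹ * (g * e * g⁻¹) ∈ zpowers z := by
      apply (QuotientGroup.eq_one_iff _).1
      have h3 : QuotientGroup.mk' (zpowers z) (e⁻¹ * (g * e * g⁻¹)) = 1 := by
        rw [map_mul, map_mul, map_mul, h1, map_inv, map_inv]
        group
      exact h3
    rcases hzmem _ h2 with h3 | h3
    · left
      rw [inv_mul_eq_one] at h3
      exact h3.symm
    · right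
      rw [inv_mul_eq_iff_eq_mul] at h3
      exact h3

/-- Burnside's lemma. -/
theorem burn {G : Type u} [Group G] [Finite G] (hG : IsPGroup 2 G) {N : Subgroup G}
    (hNn : N.Normal) (hNG : N ≤ ⁅(⊤ : Subgroup G), (⊤ : Subgroup G)⁆)
    (hNab : ∃ a ∈ N, ∃ b ∈ N, a * b ≠ b * a) {z : G} (hz : z ∈ center G) (hzN : z ∈ N)
    (hz2 : z * z = 1) :
    ∃ e ∈ N, e ≠ 1 ∧ e ≠ z ∧ e * e = 1 ∧ ∀ g : G, g * e * g⁻¹ = e ∨ g * e * g⁻¹ = e * z := by
  classical
  have h2f : Fact (Nat.Prime 2) := ⟨Nat.prime_two⟩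
  obtain ⟨A, ⟨hAn, hAN, hAab⟩, hmax⟩ := Set.Finite.exists_maximalFor
    (fun X : Subgroup G => Nat.card X)
    {X : Subgroup G | X.Normal ∧ X ≤ N ∧ ∀ a ∈ X, ∀ b ∈ X, a * b = b * a} (Set.toFinite _)
    ⟨⊥, inferInstance, bot_le, by
      intro a ha b hb
      rw [Subgroup.mem_bot] at ha hb
      rw [ha, hb]⟩
  by_cases hcase : ∃ a ∈ A, a * a = 1 ∧ a ≠ 1 ∧ a ≠ z
  · obtain ⟨a, ha, haa, ha1, haz⟩ := hcase
    obtain ⟨e, he, h1⟩ := exists_e hG hAn hAab hz hz2 ha haa ha1 haz
    exact ⟨e, hAN he, h1⟩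
  exfalso
  push Not at hcase
  obtain ⟨c, hc, hcA⟩ := cyc_of_unique (hG.to_subgroup A) hAab (z := z) (by
    intro a ha haa
    by_cases h : a = 1
    · exact Or.inl h
    · exact Or.inr (hcase a ha haa h))
  have hcen : ∀ g ∈ N, ∀ a ∈ A, g * a = a * g := by
    intro g hg a ha
    have h1 := comm_centralizes (a := c) (by
      intro g
      obtain ⟨i, hi⟩ := mem_zpowers_iff.1 (hcA _ (hAn.conj_mem c hc g))
      exact ⟨i, hi.symm⟩) g (hNG hg)
    obtain ⟨i, rfl⟩ := mem_zpowers_iff.1 (hcA a ha)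
    exact ((show Commute g c from h1).zpow_right i)
  have hAneN : A ≠ N := by
    rintro rfl
    obtain ⟨a, ha, b, hb, hab⟩ := hNab
    exact hab (hAab a ha b hb)
  set K := N.map (QuotientGroup.mk' A) with hK
  have hKn : K.Normal := hNn.map _ (QuotientGroup.mk'_surjective _)
  have hK1 : K ≠ ⊥ := by
    intro h
    apply hAneN
    apply le_antisymm hAN
    rwa [hK, Subgroup.map_eq_bot_iff, QuotientGroup.ker_mk'] at h
  have hnil : Group.IsNilpotent (G ⧸ A) := (hG.to_quotient _).isNilpotent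
  obtain ⟨_, ⟨a, ha, rfl⟩, hac, ha1⟩ := Cores.exists_mem_center_of_normal hKn hK1
  have haA : a ∉ A := fun h => ha1 ((QuotientGroup.eq_one_iff a).2 h)
  have hconj : ∀ g : G, ∃ d ∈ A, g * a * g⁻¹ = a * d := by
    intro g
    have h1 := mem_center_iff.1 hac (QuotientGroup.mk' A g)
    refine ⟨a⁻¹ * (g * a * g⁻¹), ?_, by group⟩
    apply (QuotientGroup.eq_one_iff _).1
    have h3 : QuotientGroup.mk' A (a⁻¹ * (g * a * g⁻¹)) = 1 := by
      rw [map_mul, map_mul, map_mul, h1, map_inv, map_inv]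
      group
    exact h3
  set B := A ⊔ zpowers a with hB
  have hBN : B ≤ N := sup_le hAN (zpowers_le.2 ha)
  have hAB : A < B := by
    refine lt_of_le_of_ne le_sup_left ?_
    intro h
    apply haA
    rw [h]
    exact mem_sup_right (mem_zpowers a)
  have hBn : B.Normal := by
    rw [← Subgroup.normalizer_eq_top_iff, eq_top_iff]
    intro g _
    rw [mem_normalizer_iff]
    have key : ∀ g : G, ∀ x ∈ B, g * x * g⁻¹ ∈ B := by
      intro g x hx
      have h1 : B ≤ B.comap (MulAut.conj g).toMonoidHom := by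
        refine sup_le ?_ ?_
        · intro y hy
          exact mem_sup_left (hAn.conj_mem y hy g)
        · rw [zpowers_le, mem_comap]
          obtain ⟨d, hd, h2⟩ := hconj g
          change g * a * g⁻¹ ∈ B
          rw [h2]
          exact mul_mem (mem_sup_right (mem_zpowers a)) (mem_sup_left hd)
      exact h1 hx
    intro x
    refine ⟨key g x, fun hx => ?_⟩
    have := key g⁻¹ _ hx
    have e : g⁻¹ * (g * x * g⁻¹) * g⁻¹⁻¹ = x := by group
    rwa [e] at this
  have hBab : ∀ x ∈ B, ∀ y ∈ B, x * y = y * x := by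
    have hmem : ∀ x ∈ B, ∃ d ∈ A, ∃ i : ℤ, x = d * a ^ i := by
      intro x hx
      rw [hB, Subgroup.mem_sup_of_normal_left] at hx
      obtain ⟨d, hd, y, hy, rfl⟩ := hx
      obtain ⟨i, rfl⟩ := mem_zpowers_iff.1 hy
      exact ⟨d, hd, i, rfl⟩
    intro x hx y hy
    obtain ⟨d, hd, i, rfl⟩ := hmem x hx
    obtain ⟨f, hf, j, rfl⟩ := hmem y hy
    have h1 : Commute a d := hcen a ha d hd
    have h2 : Commute a f := hcen a ha f hf
    have h3 : Commute d f := hAab d hd f hf
    have h4 : Commute (d * a ^ i) (f * a ^ j) := by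
      apply Commute.mul_left
      · exact h3.mul_right (h1.symm.zpow_right j)
      · exact (h2.zpow_left i).mul_right ((Commute.refl a).zpow_zpow i j)
    exact h4
  have h1 := hmax (j := B) ⟨hBn, hBN, hBab⟩ (Subgroup.card_le_of_le hAB.le)
  exact hAB.ne (Subgroup.eq_of_le_of_card_ge hAB.le h1)

section Rel

variable {X : Type u} [Group X] [Finite X] {T C : Subgroup X}

/-- the relative version of Burnside's lemma -/
theorem burn' (hT : IsPGroup 2 T) (hCT : C ≤ T) (hCn : ∀ t ∈ T, ∀ c ∈ C, t * c * t⁻¹ ∈ C)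
    {N : Subgroup X} (hNT : N ≤ ⁅T, T⁆) (hNn : ∀ t ∈ T, ∀ n ∈ N, t * n * t⁻¹ ∈ N)
    (hab : ∃ a ∈ N, ∃ b ∈ N, ⁅a, b⁆ ∉ C) {z : X} (hzN : z ∈ N) (hz : ∀ t ∈ T, ⁅t, z⁆ ∈ C)
    (hz2 : z * z ∈ C) :
    ∃ e ∈ N, e ∉ C ∧ z⁻¹ * e ∉ C ∧ e * e ∈ C ∧ ∀ g ∈ T, ⁅g, e⁆ ∈ C ∨ z⁻¹ * ⁅g, e⁆ ∈ C := by
  have hTT : ⁅T, T⁆ ≤ T := by
    rw [commutator_le]
    intro a ha b hb
    rw [commutatorElement_def]
    exact mul_mem (mul_mem (mul_mem ha hb) (inv_mem ha)) (inv_mem hb)
  have hNT' : N ≤ T := hNT.trans hTT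
  have hCn' : (C.subgroupOf T).Normal := by
    refine ⟨fun x hx g => ?_⟩
    exact hCn g g.2 x hx
  set π := QuotientGroup.mk' (C.subgroupOf T) with hπ
  have hπs : Function.Surjective π := QuotientGroup.mk'_surjective _
  have hmem : ∀ (x : X) (hx : x ∈ T), π ⟨x, hx⟩ = 1 ↔ x ∈ C := by
    intro x hx
    exact QuotientGroup.eq_one_iff (N := C.subgroupOf T) (⟨x, hx⟩ : T)
  have hNn' : (N.subgroupOf T).Normal := by
    refine ⟨fun x hx g => ?_⟩
    exact hNn g g.2 x hx
  have hzT : z ∈ T := hNT' hzN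
  obtain ⟨_, ⟨⟨e, heT⟩, heN, rfl⟩, he1, hez, hee, heg⟩ := burn (G := T ⧸ C.subgroupOf T)
    (hT.to_quotient _) (N := (N.subgroupOf T).map π) (hNn'.map _ hπs) (by
      rintro _ ⟨⟨x, hxT⟩, hx, rfl⟩
      have h1 : (⟨x, hxT⟩ : T) ∈ (⁅(⊤ : Subgroup T), (⊤ : Subgroup T)⁆ : Subgroup T) := by
        have h2 : (⁅(⊤ : Subgroup T), (⊤ : Subgroup T)⁆ : Subgroup T).map T.subtype = ⁅T, T⁆ := by
          rw [map_commutator, ← MonoidHom.range_eq_map, range_subtype]
        have h3 : x ∈ (⁅(⊤ : Subgroup T), (⊤ : Subgroup T)⁆ : Subgroup T).map T.subtype := by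
          rw [h2]; exact hNT hx
        obtain ⟨y, hy, hyx⟩ := h3
        have h4 : y = ⟨x, hxT⟩ := Subtype.ext hyx
        rwa [h4] at hy
      have h2 : π ⟨x, hxT⟩ ∈ (⁅(⊤ : Subgroup T), (⊤ : Subgroup T)⁆ : Subgroup T).map π :=
        ⟨_, h1, rfl⟩
      rw [map_commutator] at h2
      exact commutator_mono le_top le_top h2)
    (by
      obtain ⟨a, ha, b, hb, h1⟩ := hab
      refine ⟨_, ⟨⟨a, hNT' ha⟩, ha, rfl⟩, _, ⟨⟨b, hNT' hb⟩, hb, rfl⟩, ?_⟩
      intro h2
      apply h1
      rw [← hmem _ (by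
        rw [commutatorElement_def]
        exact mul_mem (mul_mem (mul_mem (hNT' ha) (hNT' hb)) (inv_mem (hNT' ha)))
          (inv_mem (hNT' hb)))]
      have h3 : π ⁅(⟨a, hNT' ha⟩ : T), ⟨b, hNT' hb⟩⁆ = 1 := by
        rw [map_commutatorElement, commutatorElement_eq_one_iff_mul_comm]
        exact h2
      exact h3)
    (z := π ⟨z, hzT⟩) (by
      rw [mem_center_iff]
      intro g
      obtain ⟨⟨t, ht⟩, rfl⟩ := hπs g
      rw [← commutatorElement_eq_one_iff_mul_comm, ← map_commutatorElement]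
      have h1 := hz t ht
      rw [← hmem _ (hCT h1)] at h1
      exact h1)
    ⟨⟨z, hzT⟩, hzN, rfl⟩
    (by
      rw [← map_mul]
      exact (hmem (z * z) (mul_mem hzT hzT)).2 hz2)
  refine ⟨e, heN, ?_, ?_, ?_, ?_⟩
  · intro h
    exact he1 ((hmem e heT).2 h)
  · intro h
    apply hez
    have h1 := (hmem (z⁻¹ * e) (mul_mem (inv_mem hzT) heT)).2 h
    have h2 : (⟨z⁻¹ * e, mul_mem (inv_mem hzT) heT⟩ : T) = ⟨z, hzT⟩⁻¹ * ⟨e, heT⟩ := rfl
    rw [h2, map_mul, map_inv, inv_mul_eq_one] at h1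
    exact h1.symm
  · rw [← map_mul] at hee
    exact (hmem (e * e) (mul_mem heT heT)).1 hee
  · intro g hg
    have hgeT : ⁅g, e⁆ ∈ T := by
      rw [commutatorElement_def]
      exact mul_mem (mul_mem (mul_mem hg heT) (inv_mem hg)) (inv_mem heT)
    have h0 : π ⟨⁅g, e⁆, hgeT⟩ = π ⟨g, hg⟩ * π ⟨e, heT⟩ * (π ⟨g, hg⟩)⁻¹ * (π ⟨e, heT⟩)⁻¹ := by
      rw [← map_inv, ← map_inv, ← map_mul, ← map_mul, ← map_mul]
      rfl
    rcases heg (π ⟨g, hg⟩) with h1 | h1
    · left
      rw [← hmem _ hgeT, h0, h1, mul_inv_cancel]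
    · right
      rw [← hmem _ (mul_mem (inv_mem hzT) hgeT)]
      have h2 : (⟨z⁻¹ * ⁅g, e⁆, mul_mem (inv_mem hzT) hgeT⟩ : T) = ⟨z, hzT⟩⁻¹ * ⟨⁅g, e⁆, hgeT⟩ := rfl
      have hzc : π ⟨e, heT⟩ * π ⟨z, hzT⟩ = π ⟨z, hzT⟩ * π ⟨e, heT⟩ := by
        rw [← commutatorElement_eq_one_iff_mul_comm, ← map_commutatorElement]
        have h1 := hz e heT
        rw [← hmem _ (hCT h1)] at h1
        exact h1
      rw [h2, map_mul, h0, h1, hzc, map_inv]
      group

/-- a central involution in a normal subgroup, relative version -/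
theorem exists_z (hT : IsPGroup 2 T) (hCn : ∀ t ∈ T, ∀ c ∈ C, t * c * t⁻¹ ∈ C)
    {D : Subgroup X} (hDT : D ≤ T) (hDn : ∀ t ∈ T, ∀ n ∈ D, t * n * t⁻¹ ∈ D) (hDC : ¬ D ≤ C) :
    ∃ z ∈ D, z ∉ C ∧ z * z ∈ C ∧ ∀ t ∈ T, ⁅t, z⁆ ∈ C := by
  classical
  have h2f : Fact (Nat.Prime 2) := ⟨Nat.prime_two⟩
  have hCn' : (C.subgroupOf T).Normal := ⟨fun x hx g => hCn g g.2 x hx⟩
  have hDn' : (D.subgroupOf T).Normal := ⟨fun x hx g => hDn g g.2 x hx⟩
  set π := QuotientGroup.mk' (C.subgroupOf T) with hπ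
  have hπs : Function.Surjective π := QuotientGroup.mk'_surjective _
  have hmem : ∀ (x : X) (hx : x ∈ T), π ⟨x, hx⟩ = 1 ↔ x ∈ C := by
    intro x hx
    exact QuotientGroup.eq_one_iff (N := C.subgroupOf T) (⟨x, hx⟩ : T)
  have hnil : Group.IsNilpotent (T ⧸ C.subgroupOf T) := (hT.to_quotient _).isNilpotent
  obtain ⟨_, ⟨⟨y, hyT⟩, hyD, rfl⟩, hyc, hy1⟩ := Cores.exists_mem_center_of_normal
    (hDn'.map _ hπs) (by
      intro h
      apply hDC
      intro x hx
      rw [← hmem x (hDT hx)]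
      have h1 : π ⟨x, hDT hx⟩ ∈ (D.subgroupOf T).map π := ⟨_, hx, rfl⟩
      rw [h, Subgroup.mem_bot] at h1
      exact h1)
  have hyD' : y ∈ D := hyD
  have hyC : y ∉ C := fun h => hy1 ((hmem y hyT).2 h)
  have hycc : ∀ i : ℕ, ∀ t ∈ T, ⁅t, y ^ i⁆ ∈ C := by
    intro i t ht
    have hyi : y ^ i ∈ T := pow_mem hyT i
    have h1 : ⁅t, y ^ i⁆ ∈ T := by
      rw [commutatorElement_def]
      exact mul_mem (mul_mem (mul_mem ht hyi) (inv_mem ht)) (inv_mem hyi)
    rw [← hmem _ h1]
    have h2 : π ⁅(⟨t, ht⟩ : T), ⟨y, hyT⟩ ^ i⁆ = 1 := by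
      rw [map_commutatorElement, map_pow, commutatorElement_eq_one_iff_mul_comm]
      exact (show Commute _ _ from mem_center_iff.1 hyc _).pow_right i
    exact h2
  have hex : ∃ a, y ^ 2 ^ a ∈ C := by
    obtain ⟨j, hj⟩ := hT ⟨y, hyT⟩
    refine ⟨j, ?_⟩
    have h1 : y ^ 2 ^ j = 1 := congrArg Subtype.val hj
    rw [h1]; exact one_mem _
  obtain ⟨ha, hmin⟩ := (⟨Nat.find_spec hex, fun i hi => Nat.find_min hex hi⟩ :
    y ^ 2 ^ (Nat.find hex) ∈ C ∧ ∀ i < Nat.find hex, y ^ 2 ^ i ∉ C)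
  set a := Nat.find hex
  clear_value a
  have ha0 : a ≠ 0 := by
    rintro rfl
    apply hyC
    simpa using ha
  refine ⟨y ^ 2 ^ (a - 1), pow_mem hyD' _, hmin _ (by omega), ?_, hycc _⟩
  rw [← pow_add]
  have : 2 ^ (a - 1) + 2 ^ (a - 1) = 2 ^ a := by
    rw [← two_mul, ← pow_succ']
    congr 1
    omega
  rw [this]
  exact ha

end Rel

/-- the quaternion-type argument -/
theorem q8 {G : Type u} [Group G] {z : G} (hz : ∀ x, x * z = z * x)
    (h2 : ∀ x : G, x * x = 1 ∨ x * x = z) (h1 : ∀ x : G, x * x = 1 → x = 1 ∨ x = z)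
    {K : Subgroup G} (hzK : z ∈ K) {p s : G} (hp : p ∈ K) (hs : s ∈ K) (hps : p * s ≠ s * p) :
    ∀ x, x ∈ K := by
  have hzz : z * z = 1 := by
    rcases h2 z with h | h
    · exact h
    · have : z = 1 := mul_eq_left.1 h
      rw [this, one_mul]
  have hz' : ∀ x : G, Commute x z := hz
  -- commuting up to `z`
  have hcz : ∀ x y : G, x * y = y * x ∨ x * y = z * (y * x) := by
    intro x y
    have e1 : (y * x) * (x * y) = y * (x * x) * y := by group
    have e2 : ∀ c : G, c = 1 ∨ c = z → ∀ d, d = 1 ∨ d = z → (c * d = 1 ∨ c * d = z) := by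
      rintro c (rfl | rfl) d (rfl | rfl)
      · left; group
      · right; group
      · right; group
      · left; exact hzz
    have e3 : (x * x) * (y * y) = (y * x) * (x * y) := by
      rw [e1]
      rcases h2 x with h | h
      · rw [h]; group
      · rw [h, hz y]; group
    have e4 : (y * x) * (x * y) = 1 ∨ (y * x) * (x * y) = z := by
      rw [← e3]
      exact e2 _ (h2 x) _ (h2 y)
    rcases h2 (y * x) with h | h <;> rcases e4 with h' | h'
    · left
      exact mul_left_cancel (h'.trans h.symm)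
    · right
      have : (y * x) * (x * y) = (y * x) * (z * (y * x)) := by
        rw [h', ← mul_assoc, hz (y * x), mul_assoc, h, mul_one]
      exact mul_left_cancel this
    · right
      have : (y * x) * (x * y) = (y * x) * (z * (y * x)) := by
        rw [h', ← mul_assoc, hz (y * x), mul_assoc, h, hzz]
      exact mul_left_cancel this
    · left
      exact mul_left_cancel (h'.trans h.symm)
  have hnc : ∀ x y : G, x * y ≠ y * x → x * x = z := by
    intro x y hxy
    rcases h2 x with h | h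
    · exfalso
      apply hxy
      rcases h1 x h with rfl | rfl
      · group
      · exact (hz y).symm
    · exact h
  have hpp : p * p = z := hnc p s hps
  have hss : s * s = z := hnc s p (Ne.symm hps)
  have hps' : p * s = z * (s * p) := (hcz p s).resolve_left hps
  have hsp' : s * p = z * (p * s) := by rw [hps', ← mul_assoc, hzz, one_mul]
  have hcc : ∀ x : G, x * p = p * x → x * s = s * x → x = 1 ∨ x = z := by
    intro x hxp hxs
    rcases h2 x with h | h
    · exact h1 x h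
    · exfalso
      have e1 : (x * p) * (x * p) = 1 := by
        have : (x * p) * (x * p) = x * (p * x) * p := by group
        rw [this, ← hxp]
        have : x * (x * p) * p = (x * x) * (p * p) := by group
        rw [this, h, hpp, hzz]
      apply hps
      rcases h1 _ e1 with h3 | h3
      · have h4 : p = x⁻¹ := eq_inv_of_mul_eq_one_right h3
        rw [h4]
        exact ((show Commute x s from hxs).inv_left).eq
      · have h4 : p = x⁻¹ * z := eq_inv_mul_of_mul_eq h3
        rw [h4]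
        exact (((show Commute x s from hxs).inv_left).mul_left (hz' s).symm).eq
  intro x
  rcases hcz x p with hxp | hxp <;> rcases hcz x s with hxs | hxs
  · rcases hcc x hxp hxs with rfl | rfl
    · exact one_mem _
    · exact hzK
  · have h3 : x * p = 1 ∨ x * p = z := by
      apply hcc
      · calc x * p * p = p * x * p := by rw [hxp]
          _ = p * (x * p) := by group
      · calc x * p * s = x * (p * s) := by group
          _ = x * (z * (s * p)) := by rw [hps']
          _ = (x * z) * s * p := by group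
          _ = z * (x * s) * p := by rw [hz x]; group
          _ = z * (z * (s * x)) * p := by rw [hxs]
          _ = (z * z) * (s * (x * p)) := by group
          _ = s * (x * p) := by rw [hzz, one_mul]
    rcases h3 with h3 | h3
    · rw [eq_inv_of_mul_eq_one_left h3]; exact inv_mem hp
    · rw [eq_mul_inv_of_mul_eq h3]; exact mul_mem hzK (inv_mem hp)
  · have h3 : x * s = 1 ∨ x * s = z := by
      apply hcc
      · calc x * s * p = x * (s * p) := by group
          _ = x * (z * (p * s)) := by rw [hsp']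
          _ = (x * z) * p * s := by group
          _ = z * (x * p) * s := by rw [hz x]; group
          _ = z * (z * (p * x)) * s := by rw [hxp]
          _ = (z * z) * (p * (x * s)) := by group
          _ = p * (x * s) := by rw [hzz, one_mul]
      · calc x * s * s = s * x * s := by rw [hxs]
          _ = s * (x * s) := by group
    rcases h3 with h3 | h3
    · rw [eq_inv_of_mul_eq_one_left h3]; exact inv_mem hs
    · rw [eq_mul_inv_of_mul_eq h3]; exact mul_mem hzK (inv_mem hs)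
  · have h3 : x * (p * s) = 1 ∨ x * (p * s) = z := by
      apply hcc
      · calc x * (p * s) * p = (x * p) * (s * p) := by group
          _ = (z * (p * x)) * (z * (p * s)) := by rw [hxp, hsp']
          _ = z * p * (x * z) * (p * s) := by group
          _ = z * p * (z * x) * (p * s) := by rw [hz x]
          _ = z * (p * z) * x * (p * s) := by group
          _ = z * (z * p) * x * (p * s) := by rw [hz p]
          _ = (z * z) * (p * (x * (p * s))) := by group
          _ = p * (x * (p * s)) := by rw [hzz, one_mul]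
      · calc x * (p * s) * s = x * (z * (s * p)) * s := by rw [hps']
          _ = (x * z) * s * p * s := by group
          _ = z * (x * s) * (p * s) := by rw [hz x]; group
          _ = z * (z * (s * x)) * (p * s) := by rw [hxs]
          _ = (z * z) * (s * (x * (p * s))) := by group
          _ = s * (x * (p * s)) := by rw [hzz, one_mul]
    rcases h3 with h3 | h3
    · rw [eq_inv_of_mul_eq_one_left h3]; exact inv_mem (mul_mem hp hs)
    · rw [eq_mul_inv_of_mul_eq h3]; exact mul_mem hzK (inv_mem (mul_mem hp hs))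

end Cfsg.Agent.Lib.DerGrp
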