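import Cfsg.Agent.Lib.WielandtFix
import Cfsg.Agent.Lib.SubgroupTools
import Cfsg.Agent.Lib.AltForm

/-!
Fixed points of coprime groups of isometries of a symplectic `F_p`-space, Frobenius groups
(helper59).
-/

set_option autoImplicit false

namespace Cfsg.Agent.Lib.SympFix

open Module Subgroup Cfsg.Agent.Lib.WielandtFix

universe u v w

section Frob

variable {G V : Type*} [Group G] [Finite G] {p : ℕ} [hp : Fact p.Prime] [AddCommGroup V]
  [Module (ZMod p) V]

omit [Finite G] in
theorem finrank_fixed_conj (ρ : Representation (ZMod p) G V) (E : Subgroup G) (g : G) :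
    finrank (ZMod p) (fixed ρ (E.map (MulAut.conj g).toMonoidHom)) =
      finrank (ZMod p) (fixed ρ E) := by
  have hinj : Function.Injective (ρ g) := by
    intro x y hxy
    have h1 := congrArg (ρ g⁻¹) hxy
    simpa [← Module.End.mul_apply, ← map_mul] using h1
  have h1 : fixed ρ (E.map (MulAut.conj g).toMonoidHom) = (fixed ρ E).map (ρ g) := by
    ext v
    constructor
    · intro hv
      refine ⟨ρ g⁻¹ v, ?_, ?_⟩
      · intro e he
        have h2 := hv (g * e * g⁻¹) ⟨e, he, rfl⟩
        rw [← Module.End.mul_apply, ← map_mul]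
        have h3 : e * g⁻¹ = g⁻¹ * (g * e * g⁻¹) := by group
        rw [h3, map_mul, Module.End.mul_apply, h2]
      · rw [← Module.End.mul_apply, ← map_mul, mul_inv_cancel, map_one]; rfl
    · rintro ⟨w, hw, rfl⟩
      rintro _ ⟨e, he, rfl⟩
      change ρ (g * e * g⁻¹) (ρ g w) = ρ g w
      rw [← Module.End.mul_apply, ← map_mul, inv_mul_cancel_right, map_mul, Module.End.mul_apply,
        hw e he]
  rw [h1]
  exact (Submodule.equivMapOfInjective (ρ g) hinj (fixed ρ E)).finrank_eq.symm

/-- the fixed point formula for a Frobenius group `UE` -/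
theorem frob_linear [Module.Finite (ZMod p) V] (hc : p.Coprime (Nat.card G))
    (ρ : Representation (ZMod p) G V) (U E : Subgroup G) (hUE : U ⊓ E = ⊥)
    (hUn : ∀ e ∈ E, ∀ u ∈ U, e * u * e⁻¹ ∈ U)
    (hfpf : ∀ e ∈ E, e ≠ 1 → ∀ u ∈ U, e * u = u * e → u = 1) :
    finrank (ZMod p) V + Nat.card E * finrank (ZMod p) (fixed ρ (U ⊔ E)) =
      Nat.card E * finrank (ZMod p) (fixed ρ E) + finrank (ZMod p) (fixed ρ U) := by
  classical
  have hfU : Fintype U := Fintype.ofFinite U
  have hEU : E ≤ normalizer (U : Set G) := by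
    intro e he
    rw [mem_normalizer_iff]
    intro x
    refine ⟨hUn e he x, fun hx => ?_⟩
    have := hUn e⁻¹ (inv_mem he) _ hx
    simpa [mul_assoc] using this
  have hmemA : ∀ a ∈ U ⊔ E, ∃ v ∈ U, ∃ e ∈ E, v * e = a := by
    intro a ha
    exact (SubgroupTools.mem_sup_of_le_normalizer hEU).mp ha
  let cj : U → Subgroup G := fun u => E.map (MulAut.conj (u : G)).toMonoidHom
  have hcj : ∀ (u : U) (a : G), a ∈ cj u ↔ (u : G)⁻¹ * a * u ∈ E := by
    intro u a
    constructor
    · rintro ⟨e, he, rfl⟩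
      simpa [mul_assoc] using he
    · intro h
      exact ⟨_, h, by simp [mul_assoc]⟩
  let S : Fin 3 ⊕ U → Subgroup G := Sum.elim ![U ⊔ E, U, ⊥] cj
  let c : Fin 3 ⊕ U → ℤ := Sum.elim ![1, -1, (Nat.card U : ℤ)] (fun _ => -1)
  have hEA : ∀ u : U, cj u ≤ U ⊔ E := by
    intro u a ha
    rw [hcj] at ha
    have h1 := mul_mem (mul_mem (mem_sup_left u.2 : (u : G) ∈ U ⊔ E) (mem_sup_right ha))
      (inv_mem (mem_sup_left u.2))
    simpa [mul_assoc] using h1
  have hlin := linear_formula hc ρ S c (by
    intro a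
    by_cases ha : a ∈ U ⊔ E
    swap
    · refine Finset.sum_eq_zero fun i _ => ?_
      rw [if_neg]
      intro hai
      apply ha
      rcases i with i | i
      · fin_cases i
        · exact hai
        · exact mem_sup_left hai
        · exact (bot_le : (⊥ : Subgroup G) ≤ U ⊔ E) hai
      · exact hEA i hai
    revert ha
    intro ha
    rw [Fintype.sum_sum_type, Fin.sum_univ_three]
    have e0 : (if a ∈ S (Sum.inl 0) then c (Sum.inl 0) else 0) = 1 := if_pos ha
    rw [e0]
    change 1 + (if a ∈ S (Sum.inl 1) then c (Sum.inl 1) else 0) + (if a ∈ S (Sum.inl 2) then c (Sum.inl 2) else 0)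
      + ∑ u : U, (if a ∈ cj u then (-1 : ℤ) else 0) = 0
    by_cases h1 : a = 1
    · subst h1
      have e1 : (if (1 : G) ∈ S (Sum.inl 1) then c (Sum.inl 1) else 0) = -1 := if_pos (one_mem _)
      have e2 : (if (1 : G) ∈ S (Sum.inl 2) then c (Sum.inl 2) else 0) = (Nat.card U : ℤ) := if_pos (one_mem _)
      rw [e1, e2]
      simp only [one_mem, if_true]
      rw [Finset.sum_const, Finset.card_univ, Nat.card_eq_fintype_card]
      simp
    · by_cases h2 : a ∈ U
      · have h3 : ∀ u : U, a ∉ cj u := by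
          intro u hu
          rw [hcj] at hu
          have h4 : (u : G)⁻¹ * a * u ∈ U ⊓ E := mem_inf.mpr ⟨mul_mem (mul_mem (inv_mem u.2) h2) u.2, hu⟩
          rw [hUE, mem_bot] at h4
          apply h1
          have : a = (u : G) * ((u : G)⁻¹ * a * u) * (u : G)⁻¹ := by group
          rw [this, h4]; group
        have e1 : (if a ∈ S (Sum.inl 1) then c (Sum.inl 1) else 0) = -1 := if_pos h2
        have e2 : (if a ∈ S (Sum.inl 2) then c (Sum.inl 2) else 0) = 0 := if_neg (fun h => h1 (mem_bot.mp h))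
        rw [e1, e2]
        simp only [h3, if_false]
        simp
      · obtain ⟨v, hv, e, he, rfl⟩ := hmemA a ha
        have he1 : e ≠ 1 := by
          rintro rfl
          exact h2 (by simpa using hv)
        have hinj : Function.Injective (fun u : U => (⟨u * (e * (u : G)⁻¹ * e⁻¹),
            mul_mem u.2 (hUn e he _ (inv_mem u.2))⟩ : U)) := by
          intro u w huw
          have h5 : (u : G) * (e * (u : G)⁻¹ * e⁻¹) = w * (e * (w : G)⁻¹ * e⁻¹) :=
            congrArg Subtype.val huw
          have h6 := hfpf e he he1 ((w : G)⁻¹ * u) (mul_mem (inv_mem w.2) u.2) (by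
            have h7 : (u : G) * e * (u : G)⁻¹ = w * e * (w : G)⁻¹ := by
              calc (u : G) * e * (u : G)⁻¹ = ((u : G) * (e * (u : G)⁻¹ * e⁻¹)) * e := by group
                _ = (w * (e * (w : G)⁻¹ * e⁻¹)) * e := by rw [h5]
                _ = w * e * (w : G)⁻¹ := by group
            calc e * ((w : G)⁻¹ * u) = (w : G)⁻¹ * (w * e * (w : G)⁻¹) * u := by group
              _ = (w : G)⁻¹ * (u * e * (u : G)⁻¹) * u := by rw [h7]
              _ = (w : G)⁻¹ * u * e := by group)
          exact Subtype.ext (inv_mul_eq_one.mp h6).symm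
        obtain ⟨u, hu⟩ := (Finite.injective_iff_surjective.mp hinj) ⟨v, hv⟩
        have hu' : (u : G) * (e * (u : G)⁻¹ * e⁻¹) = v := congrArg Subtype.val hu
        have h8 : ∀ w : U, v * e ∈ cj w ↔ w = u := by
          intro w
          rw [hcj]
          constructor
          · intro h9
            have h10 : (w : G)⁻¹ * (v * e) * w = ((w : G)⁻¹ * u) * e * ((w : G)⁻¹ * u)⁻¹ := by
              rw [← hu']; group
            rw [h10] at h9
            set t : G := (w : G)⁻¹ * u with ht
            have htU : t ∈ U := mul_mem (inv_mem w.2) u.2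
            have h11 : t * e * t⁻¹ * e⁻¹ ∈ U ⊓ E := by
              refine mem_inf.mpr ⟨?_, mul_mem h9 (inv_mem he)⟩
              have := mul_mem htU (hUn e he _ (inv_mem htU))
              simpa [mul_assoc] using this
            rw [hUE, mem_bot] at h11
            have h12 : t = 1 := hfpf e he he1 t htU (by
              have h13 : t * e * t⁻¹ = e := by rwa [mul_inv_eq_one] at h11
              calc e * t = t * e * t⁻¹ * t := by rw [h13]
                _ = t * e := by group)
            exact Subtype.ext (inv_mul_eq_one.mp h12)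
          · rintro rfl
            rw [← hu']
            have : (w : G)⁻¹ * ((w : G) * (e * (w : G)⁻¹ * e⁻¹) * e) * w = e := by group
            rw [this]; exact he
        have e1 : (if v * e ∈ S (Sum.inl 1) then c (Sum.inl 1) else 0) = 0 := if_neg h2
        have e2 : (if v * e ∈ S (Sum.inl 2) then c (Sum.inl 2) else 0) = 0 := if_neg (fun h => h1 (mem_bot.mp h))
        rw [e1, e2]
        simp only [h8]
        simp)
  rw [Fintype.sum_sum_type, Fin.sum_univ_three] at hlin
  have hcardcj : ∀ u : U, Nat.card (cj u) = Nat.card E := fun u =>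
    card_map_of_injective (MulAut.conj (u : G)).injective
  have hbot : finrank (ZMod p) (fixed ρ (⊥ : Subgroup G)) = finrank (ZMod p) V := by
    have h1 : fixed ρ (⊥ : Subgroup G) = ⊤ := by
      ext v
      simp only [mem_fixed, Submodule.mem_top, iff_true]
      intro x hx
      rw [mem_bot.1 hx, map_one]; rfl
    rw [h1, finrank_top]
  have hsum : ∑ u : U, c (Sum.inr u) * (Nat.card (S (Sum.inr u)) : ℤ) *
      (finrank (ZMod p) (fixed ρ (S (Sum.inr u))) : ℤ) =
      -((Nat.card U : ℤ) * ((Nat.card E : ℤ) * (finrank (ZMod p) (fixed ρ E) : ℤ))) := by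
    have h1 : ∀ u : U, c (Sum.inr u) * (Nat.card (S (Sum.inr u)) : ℤ) *
        (finrank (ZMod p) (fixed ρ (S (Sum.inr u))) : ℤ) =
        -((Nat.card E : ℤ) * (finrank (ZMod p) (fixed ρ E) : ℤ)) := by
      intro u
      change (-1 : ℤ) * (Nat.card (cj u) : ℤ) * (finrank (ZMod p) (fixed ρ (cj u)) : ℤ) = _
      rw [hcardcj, finrank_fixed_conj]
      ring
    rw [Finset.sum_congr rfl fun u _ => h1 u, Finset.sum_const, Finset.card_univ,
      ← Nat.card_eq_fintype_card]
    simp
  rw [hsum] at hlin
  have hcUE : Nat.card (U ⊔ E : Subgroup G) = Nat.card U * Nat.card E :=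
    SubgroupTools.card_sup_of_disjoint hEU (disjoint_iff.2 hUE)
  have e0 : c (Sum.inl 0) * (Nat.card (S (Sum.inl 0)) : ℤ) *
      (finrank (ZMod p) (fixed ρ (S (Sum.inl 0))) : ℤ) =
      (Nat.card U : ℤ) * (Nat.card E : ℤ) * (finrank (ZMod p) (fixed ρ (U ⊔ E)) : ℤ) := by
    change (1 : ℤ) * (Nat.card (U ⊔ E : Subgroup G) : ℤ) * _ = _
    rw [hcUE]; push_cast; ring_nf; rfl
  have e1 : c (Sum.inl 1) * (Nat.card (S (Sum.inl 1)) : ℤ) *
      (finrank (ZMod p) (fixed ρ (S (Sum.inl 1))) : ℤ) =
      -((Nat.card U : ℤ) * (finrank (ZMod p) (fixed ρ U) : ℤ)) := by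
    change (-1 : ℤ) * (Nat.card U : ℤ) * (finrank (ZMod p) (fixed ρ U) : ℤ) = _
    ring
  have e2 : c (Sum.inl 2) * (Nat.card (S (Sum.inl 2)) : ℤ) *
      (finrank (ZMod p) (fixed ρ (S (Sum.inl 2))) : ℤ) =
      (Nat.card U : ℤ) * (finrank (ZMod p) V : ℤ) := by
    change (Nat.card U : ℤ) * (Nat.card (⊥ : Subgroup G) : ℤ) *
      (finrank (ZMod p) (fixed ρ (⊥ : Subgroup G)) : ℤ) = _
    rw [hbot, Subgroup.card_bot]; push_cast; ring
  rw [e0, e1, e2] at hlin
  have hU0 : (Nat.card U : ℤ) ≠ 0 := by
    have : Nat.card U ≠ 0 := Nat.card_pos.ne'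
    exact_mod_cast this
  have h3 : (Nat.card U : ℤ) * (((finrank (ZMod p) V : ℤ) + Nat.card E *
      (finrank (ZMod p) (fixed ρ (U ⊔ E)) : ℤ)) - (Nat.card E *
      (finrank (ZMod p) (fixed ρ E) : ℤ) + (finrank (ZMod p) (fixed ρ U) : ℤ))) = 0 := by
    linarith
  rcases mul_eq_zero.1 h3 with h4 | h4
  · exact absurd h4 hU0
  · have h5 := sub_eq_zero.1 h4
    exact_mod_cast h5

end Frob

section Pairing

variable {q : ℕ} [hq : Fact q.Prime] {M : Type*} [AddCommGroup M] [Module (ZMod q) M]
  {k : Type*} [Field k]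

/-- an alternating pairing with values in the multiplicative group of a field -/
structure IsPairing (e : M → M → k) : Prop where
  add_left : ∀ x y z, e (x + y) z = e x z * e y z
  add_right : ∀ x y z, e x (y + z) = e x y * e x z
  self : ∀ x, e x x = 1

namespace IsPairing

variable {e : M → M → k} (he : IsPairing e)
include he

omit hq [Module (ZMod q) M] in
theorem mul_swap (x y : M) : e x y * e y x = 1 := by
  have h1 := he.self (x + y)
  rw [he.add_left, he.add_right, he.add_right, he.self, he.self, one_mul, mul_one] at h1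
  exact h1

omit hq [Module (ZMod q) M] in
theorem ne_zero (x y : M) : e x y ≠ 0 := by
  intro h
  have := he.mul_swap x y
  rw [h, zero_mul] at this
  exact zero_ne_one this

omit hq [Module (ZMod q) M] in
theorem zero_left (y : M) : e 0 y = 1 := by
  have h := he.add_left 0 0 y
  rw [add_zero] at h
  exact mul_left_cancel₀ (he.ne_zero 0 y) (by rw [mul_one]; exact h.symm)

omit hq [Module (ZMod q) M] in
theorem zero_right (x : M) : e x 0 = 1 := by
  have h := he.add_right x 0 0
  rw [add_zero] at h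
  exact mul_left_cancel₀ (he.ne_zero x 0) (by rw [mul_one]; exact h.symm)

omit hq [Module (ZMod q) M] in
theorem nsmul_left (n : ℕ) (x y : M) : e (n • x) y = e x y ^ n := by
  induction n with
  | zero => rw [zero_smul, he.zero_left, pow_zero]
  | succ n ih => rw [succ_nsmul, he.add_left, ih, pow_succ]

omit hq [Module (ZMod q) M] in
theorem nsmul_right (n : ℕ) (x y : M) : e x (n • y) = e x y ^ n := by
  induction n with
  | zero => rw [zero_smul, he.zero_right, pow_zero]
  | succ n ih => rw [succ_nsmul, he.add_right, ih, pow_succ]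

include hq in
theorem pow_eq_one (x y : M) : e x y ^ q = 1 := by
  rw [← he.nsmul_left, ← Nat.cast_smul_eq_nsmul (ZMod q), ZMod.natCast_self, zero_smul,
    he.zero_left]

omit hq [Module (ZMod q) M] in
theorem sum_right {ι : Type*} (s : Finset ι) (x : M) (f : ι → M) :
    e x (∑ i ∈ s, f i) = ∏ i ∈ s, e x (f i) := by
  classical
  induction s using Finset.induction_on with
  | empty => rw [Finset.sum_empty, Finset.prod_empty, he.zero_right]
  | insert a s ha ih => rw [Finset.sum_insert ha, Finset.prod_insert ha, he.add_right, ih]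

/-- a nondegenerate alternating pairing lives on an even-dimensional space -/
theorem even_finrank [Finite M] (hnd : ∀ x, (∀ y, e x y = 1) → x = 0) :
    Even (finrank (ZMod q) M) := by
  classical
  by_cases htriv : ∀ x : M, x = 0
  · have : Subsingleton M := ⟨fun a b => (htriv a).trans (htriv b).symm⟩
    rw [finrank_zero_of_subsingleton]
    exact ⟨0, rfl⟩
  push Not at htriv
  obtain ⟨x₀, hx₀⟩ := htriv
  obtain ⟨y₀, hy₀⟩ : ∃ y, e x₀ y ≠ 1 := by
    by_contra h
    push Not at h
    exact hx₀ (hnd x₀ h)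
  set ζ := e x₀ y₀ with hζ
  have hprim : IsPrimitiveRoot ζ q := by
    rw [IsPrimitiveRoot.iff_orderOf]
    exact orderOf_eq_prime (he.pow_eq_one (q := q) x₀ y₀) hy₀
  have hex : ∀ x y : M, ∃ i : ℕ, ζ ^ i = e x y := by
    intro x y
    obtain ⟨i, _, hi⟩ := hprim.eq_pow_of_pow_eq_one (he.pow_eq_one (q := q) x y)
    exact ⟨i, hi⟩
  choose B hB using hex
  have hcast : ∀ i j : ℕ, ζ ^ i = ζ ^ j → (i : ZMod q) = j := by
    intro i j hij
    rw [ZMod.natCast_eq_natCast_iff]
    refine hprim.pow_inj (Nat.mod_lt _ hq.out.pos) (Nat.mod_lt _ hq.out.pos) ?_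
    have h1 : orderOf ζ = q := hprim.eq_orderOf.symm
    have h2 := pow_mod_orderOf ζ i
    have h3 := pow_mod_orderOf ζ j
    rw [h1] at h2 h3
    rw [h2, h3, hij]
  have hadd_left : ∀ x y z, ((B (x + y) z : ℕ) : ZMod q) = B x z + B y z := by
    intro x y z
    rw [← Nat.cast_add]
    apply hcast
    rw [hB, pow_add, hB, hB, he.add_left]
  have hadd_right : ∀ x y z, ((B x (y + z) : ℕ) : ZMod q) = B x y + B x z := by
    intro x y z
    rw [← Nat.cast_add]
    apply hcast
    rw [hB, pow_add, hB, hB, he.add_right]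
  have hsmul : ∀ (c : ZMod q) (x : M), c • x = c.val • x := by
    intro c x
    conv_lhs => rw [← ZMod.natCast_zmod_val c]
    rw [Nat.cast_smul_eq_nsmul]
  let f : M →ₗ[ZMod q] M →ₗ[ZMod q] ZMod q := LinearMap.mk₂ (ZMod q)
    (fun x y => ((B x y : ℕ) : ZMod q)) hadd_left (by
      intro c x y
      rw [smul_eq_mul, hsmul]
      conv_rhs => rw [← ZMod.natCast_zmod_val c]
      rw [← Nat.cast_mul]
      apply hcast
      rw [hB, he.nsmul_left, ← hB, ← pow_mul, mul_comm]) hadd_right (by
      intro c x y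
      rw [smul_eq_mul, hsmul]
      conv_rhs => rw [← ZMod.natCast_zmod_val c]
      rw [← Nat.cast_mul]
      apply hcast
      rw [hB, he.nsmul_right, ← hB, ← pow_mul, mul_comm])
  have hf : ∀ x y, f x y = ((B x y : ℕ) : ZMod q) := fun x y => rfl
  have hone : ∀ x y, f x y = 0 → e x y = 1 := by
    intro x y h
    rw [hf, ZMod.natCast_eq_zero_iff] at h
    rw [← hB]
    exact (hprim.pow_eq_one_iff_dvd _).2 h
  refine AltForm.even_finrank f ?_ ?_
  · intro x
    rw [hf, ZMod.natCast_eq_zero_iff]
    rw [← hprim.pow_eq_one_iff_dvd, hB, he.self]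
  · intro x hx
    exact hnd x fun y => hone x y (hx y)

/-- the fixed space of a coprime group of isometries is nondegenerate -/
theorem nondeg_fixed {X : Type*} [Group X] [Finite X] (hc : q.Coprime (Nat.card X))
    (ρ : Representation (ZMod q) X M) (hinv : ∀ g x y, e (ρ g x) (ρ g y) = e x y)
    (hnd : ∀ x, (∀ y, e x y = 1) → x = 0) (S : Subgroup X) :
    ∀ v ∈ fixed ρ S, (∀ w ∈ fixed ρ S, e v w = 1) → v = 0 := by
  classical
  intro v hv hvw
  apply hnd
  intro m
  let _ : Fintype S := Fintype.ofFinite S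
  have h1 : ∑ s : S, ρ s m ∈ fixed ρ S := by
    intro x hx
    rw [map_sum]
    refine Fintype.sum_equiv (Equiv.mulLeft (⟨x, hx⟩ : S)) _ _ fun s => ?_
    rw [← Module.End.mul_apply, ← map_mul]
    rfl
  have h2 := hvw _ h1
  rw [he.sum_right] at h2
  have h3 : ∀ s ∈ (Finset.univ : Finset S), e v (ρ s m) = e v m := by
    intro s _
    have h4 := hinv (s : X) v m
    rw [hv s s.2] at h4
    exact h4
  rw [Finset.prod_congr rfl h3, Finset.prod_const, Finset.card_univ, ← Nat.card_eq_fintype_card]
    at h2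
  have h4 : q.Coprime (Nat.card S) := hc.coprime_dvd_right (card_subgroup_dvd_card S)
  have h5 : orderOf (e v m) ∣ Nat.gcd q (Nat.card S) :=
    Nat.dvd_gcd (orderOf_dvd_of_pow_eq_one (he.pow_eq_one (q := q) v m))
      (orderOf_dvd_of_pow_eq_one h2)
  rw [h4.gcd_eq_one, Nat.dvd_one] at h5
  exact orderOf_eq_one_iff.1 h5

theorem even_fixed [Finite M] {X : Type*} [Group X] [Finite X] (hc : q.Coprime (Nat.card X))
    (ρ : Representation (ZMod q) X M) (hinv : ∀ g x y, e (ρ g x) (ρ g y) = e x y)
    (hnd : ∀ x, (∀ y, e x y = 1) → x = 0) (S : Subgroup X) :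
    Even (finrank (ZMod q) (fixed ρ S)) := by
  have he' : IsPairing (fun x y : fixed ρ S => e (x : M) y) :=
    ⟨fun x y z => he.add_left x y z, fun x y z => he.add_right x y z, fun x => he.self x⟩
  refine he'.even_finrank (q := q) ?_
  intro x hx
  apply Subtype.ext
  exact he.nondeg_fixed hc ρ hinv hnd S x x.2 fun w hw => hx ⟨w, hw⟩

end IsPairing

end Pairing

end Cfsg.Agent.Lib.SympFix
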