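import Cfsg.Agent.Lib.DerZn
import Cfsg.Agent.Lib.SympFix
import Cfsg.Agent.Lib.HHLin

/-!
Heisenberg data in characteristic two with a group acting (helper59).
-/

set_option autoImplicit false

namespace Cfsg.Agent.Lib.DerHD

open Module Subgroup Cfsg Cfsg.Agent.Lib.SympFix Cfsg.Agent.Lib.DerZn
open scoped commutatorElement

universe u v w t

/-- projective Heisenberg operators -/
structure HD {X : Type u} [Group X] {k : Type v} [Field k] {W : Type w} [AddCommGroup W]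
    [Module k W] {q : ℕ} {M : Type t} [AddCommGroup M] [Module (ZMod q) M]
    (H : X →* Module.End k W) (ρ : X →* Module.End (ZMod q) M) (O : M → Module.End k W)
    (e : M → M → k) : Prop where
  inj : ∀ m w, O m w = 0 → w = 0
  comm : ∀ m n w, O m (O n w) = e m n • O n (O m w)
  act : ∀ x m, ∃ c : k, ∀ w, H x (O m w) = c • O (ρ x m) (H x w)
  pair : IsPairing e
  inv : ∀ x m n, e (ρ x m) (ρ x n) = e m n
  hh : ∀ (W' : Submodule k W) (M' : Submodule (ZMod q) M), (∀ m ∈ M', ∀ w ∈ W', O m w ∈ W') →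
    ∀ x : X, (∃ j, x ^ 2 ^ j = 1) → (∀ w ∈ W', H x w ∈ W') → (∀ m ∈ M', ρ x m ∈ M') →
    ∀ a, 3 ≤ a → (∀ w ∈ W', H (x ^ 2 ^ a) w = w) →
    (∃ m ∈ M', ∃ w ∈ W', H (x ^ 2 ^ (a - 1)) (O m w) ≠ O m (H (x ^ 2 ^ (a - 1)) w)) →
    ¬ ∀ w ∈ W', ((H x - 1) ^ (2 ^ (a - 1) + 1) : Module.End k W) w = 0

section

variable {X : Type u} [Group X] {k : Type v} [Field k] [hk2 : CharP k 2] {W : Type w}
    [AddCommGroup W] [Module k W] {q : ℕ} {M : Type t} [AddCommGroup M] [Module (ZMod q) M]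
    {H : X →* Module.End k W} {ρ : X →* Module.End (ZMod q) M} {O : M → Module.End k W}
    {e : M → M → k}

omit [Module (ZMod q) M] in
theorem e_sq (_he : IsPairing e) {m n : M} (h : e m n * e m n = 1) : e m n = 1 := by
  have h2 : (2 : k) = 0 := CharP.cast_eq_zero k 2
  have h1 : (e m n - 1) * (e m n - 1) = 0 := by
    have h3 : (e m n - 1) * (e m n - 1) = e m n * e m n + 1 - 2 * e m n := by ring
    rw [h3, h, h2, zero_mul, sub_zero, one_add_one_eq_two, h2]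
  rcases mul_eq_zero.1 h1 with h4 | h4 <;> exact sub_eq_zero.1 h4

omit hk2 [Module (ZMod q) M] in
theorem e_neg (he : IsPairing e) (m n : M) : e (-m) n * e m n = 1 := by
  rw [← he.add_left, neg_add_cancel, he.zero_left]

/-- commutation with `2`-elements -/
theorem HD.commute (h : HD H ρ O e) {x : X} (hx : ∃ j, x ^ 2 ^ j = 1) {m : M} (hm : ρ x m = m)
    (w : W) : H x (O m w) = O m (H x w) := by
  have h2f : Fact (Nat.Prime 2) := ⟨Nat.prime_two⟩
  obtain ⟨j, hj⟩ := hx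
  obtain ⟨c, hc⟩ := h.act x m
  rw [hm] at hc
  by_cases hw : w = 0
  · rw [hw]; simp
  have h1 : ∀ i : ℕ, ∀ w, H (x ^ i) (O m w) = c ^ i • O m (H (x ^ i) w) := by
    intro i
    induction i with
    | zero => intro w; simp
    | succ i ih =>
      intro w
      rw [pow_succ, map_mul, Module.End.mul_apply, Module.End.mul_apply, hc, map_smul, ih,
        smul_smul, pow_succ']
  have h2 := h1 (2 ^ j) w
  rw [hj, map_one, Module.End.one_apply, Module.End.one_apply] at h2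
  have h3 : (c ^ 2 ^ j - 1) • O m w = 0 := by rw [sub_smul, one_smul, ← h2, sub_self]
  have h4 : c ^ 2 ^ j - 1 = 0 := by
    rcases smul_eq_zero.1 h3 with h4 | h4
    · exact h4
    · exact absurd (h.inj _ _ h4) hw
  have h5 : (c - 1) ^ 2 ^ j = 0 := by rw [sub_pow_char_pow, one_pow, h4]
  have h6 : c = 1 := sub_eq_zero.1 (pow_eq_zero_iff (by positivity) |>.1 h5)
  rw [hc, h6, one_smul]

/-- the key claim -/
theorem HD.key (h : HD H ρ O e) {W' : Submodule k W} {M' : Submodule (ZMod q) M}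
    (hio : ∀ m ∈ M', ∀ w ∈ W', O m w ∈ W') {b : X} (hb : ∀ m ∈ M', ρ b m = -m)
    (hK : ∀ m ∈ M', ∀ w ∈ W', ∃ w₀ ∈ W', H b w₀ = w ∧ H b (O m w₀) = O m w)
    (hne : ∃ m ∈ M', ∃ n ∈ M', e m n ≠ 1) : W' = ⊥ := by
  obtain ⟨m, hm, n, hn, hmn⟩ := hne
  rw [eq_bot_iff]
  intro w hw
  rw [Submodule.mem_bot]
  obtain ⟨c, hc⟩ := h.act b m
  rw [hb m hm] at hc
  have h1 : ∀ w ∈ W', O m w = c • O (-m) w := by
    intro w hw
    obtain ⟨w₀, hw₀, h1, h2⟩ := hK m hm w hw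
    rw [← h2, hc, h1]
  by_contra hw0
  have h2 := h1 _ (hio n hn w hw)
  rw [h.comm m n, h.comm (-m) n, smul_comm c, ← map_smul (O n) c, ← h1 w hw] at h2
  have h3 : (e m n - e (-m) n) • O n (O m w) = 0 := by rw [sub_smul, h2, sub_self]
  rcases smul_eq_zero.1 h3 with h4 | h4
  · apply hmn
    apply e_sq h.pair
    have h5 := e_neg h.pair m n
    rw [← sub_eq_zero.1 h4] at h5
    exact h5
  · exact hw0 (h.inj _ _ (h.inj _ _ h4))

theorem HD.key' (h : HD H ρ O e) {W' : Submodule k W} {M' : Submodule (ZMod q) M}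
    (hio : ∀ m ∈ M', ∀ w ∈ W', O m w ∈ W') {b : X} (hb : ∀ m ∈ M', ρ b m = -m)
    (hK : ∀ w ∈ W', H b w = w) (hne : ∃ m ∈ M', ∃ n ∈ M', e m n ≠ 1) : W' = ⊥ :=
  h.key hio hb (fun m hm w hw => ⟨w, hw, hK w hw, hK _ (hio m hm w hw)⟩) hne

omit hk2 in
/-- an element trivial on `W'` is trivial on `M'` -/
theorem HD.triv (h : HD H ρ O e) {W' : Submodule k W} {M' : Submodule (ZMod q) M}
    (hio : ∀ m ∈ M', ∀ w ∈ W', O m w ∈ W') (hne : W' ≠ ⊥)
    (hnd : ∀ m ∈ M', (∀ n ∈ M', e m n = 1) → m = 0) {x : X} (hxM : ∀ m ∈ M', ρ x m ∈ M')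
    (hx : ∀ w ∈ W', H x w = w) : ∀ m ∈ M', ρ x m = m := by
  intro m hm
  rw [← sub_eq_zero]
  apply hnd _ (sub_mem (hxM m hm) hm)
  intro n hn
  obtain ⟨w, hw, hw0⟩ := (Submodule.ne_bot_iff _).1 hne
  obtain ⟨c, hc⟩ := h.act x m
  have h1 : ∀ w ∈ W', O m w = c • O (ρ x m) w := by
    intro w hw
    have := hc w
    rwa [hx _ (hio m hm w hw), hx w hw] at this
  have h2 := h1 _ (hio n hn w hw)
  rw [h.comm m n, h.comm (ρ x m) n, smul_comm c, ← map_smul (O n) c, ← h1 w hw] at h2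
  have h3 : (e m n - e (ρ x m) n) • O n (O m w) = 0 := by rw [sub_smul, h2, sub_self]
  rcases smul_eq_zero.1 h3 with h4 | h4
  · have h5 : e (ρ x m - m) n * e m n = e m n := by
      rw [← h.pair.add_left, sub_add_cancel, ← sub_eq_zero.1 h4]
    exact mul_right_cancel₀ (h.pair.ne_zero m n) (by rw [h5, one_mul])
  · exact absurd (h.inj _ _ (h.inj _ _ h4)) hw0

/-- Claim A -/
theorem HD.claimA (h : HD H ρ O e) {W' : Submodule k W} {M' : Submodule (ZMod q) M}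
    (hio : ∀ m ∈ M', ∀ w ∈ W', O m w ∈ W') {x b : X} (hx2 : ∃ j, x ^ 2 ^ j = 1)
    (hxM : ∀ m ∈ M', ρ x m = m) (hb : ∀ m ∈ M', ρ b m = -m)
    (hbx : ∀ w ∈ W', H b (H x w - w) = H x w - w)
    (hne : ∃ m ∈ M', ∃ n ∈ M', e m n ≠ 1) : ∀ w ∈ W', H x w = w := by
  have h1 : W'.map (H x - 1) = ⊥ := by
    refine h.key' (M' := M') ?_ hb ?_ hne
    · rintro m hm _ ⟨w, hw, rfl⟩
      refine ⟨O m w, hio m hm w hw, ?_⟩
      rw [LinearMap.sub_apply, LinearMap.sub_apply, Module.End.one_apply, Module.End.one_apply,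
        h.commute hx2 (hxM m hm), map_sub]
    · rintro _ ⟨w, hw, rfl⟩
      rw [LinearMap.sub_apply, Module.End.one_apply]
      exact hbx w hw
  intro w hw
  have h2 : (H x - 1) w ∈ W'.map (H x - 1) := ⟨w, hw, rfl⟩
  rw [h1, Submodule.mem_bot, LinearMap.sub_apply, Module.End.one_apply, sub_eq_zero] at h2
  exact h2

theorem e_fix (he : IsPairing e) (hinv : ∀ x m n, e (ρ x m) (ρ x n) = e m n) {x : X} {m n : M}
    (hm : ρ x m = m) (hmn : e m n ≠ 1) : e m (n + ρ x n) ≠ 1 := by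
  intro h
  apply hmn
  apply e_sq he
  have h1 : e m (ρ x n) = e m n := by
    conv_lhs => rw [← hm]
    exact hinv x m n
  rw [he.add_right, h1] at h
  exact h

theorem e_negfix (he : IsPairing e) (hinv : ∀ x m n, e (ρ x m) (ρ x n) = e m n) {x : X} {m n : M}
    (hm : ρ x m = -m) (hmn : e m n ≠ 1) : e m (n - ρ x n) ≠ 1 := by
  intro h
  apply hmn
  apply e_sq he
  have h1 : e m (ρ x n) * e m n = 1 := by
    have h2 : m = ρ x (-m) := by rw [map_neg, hm, neg_neg]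
    have h3 : e m (ρ x n) = e (-m) n := by
      conv_lhs => rw [h2]
      exact hinv x (-m) n
    rw [h3]
    exact e_neg he m n
  have h2 : e m (n - ρ x n) * e m (ρ x n) = e m n := by
    rw [← he.add_right, sub_add_cancel]
  rw [h, one_mul] at h2
  rw [← h2] at h1
  rw [← h2]
  exact h1

/-- a configuration: a submodule `W'` and a nondegenerate `M'`, invariant under `T` -/
structure Cf (H : X →* Module.End k W) (ρ : X →* Module.End (ZMod q) M) (O : M → Module.End k W)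
    (e : M → M → k) (T : Subgroup X) (W' : Submodule k W) (M' : Submodule (ZMod q) M) : Prop where
  p2 : IsPGroup 2 T
  ne : W' ≠ ⊥
  tW : ∀ t ∈ T, ∀ w ∈ W', H t w ∈ W'
  tM : ∀ t ∈ T, ∀ m ∈ M', ρ t m ∈ M'
  io : ∀ m ∈ M', ∀ w ∈ W', O m w ∈ W'
  nd : ∀ m ∈ M', (∀ n ∈ M', e m n = 1) → m = 0

variable {T : Subgroup X} {W' : Submodule k W} {M' : Submodule (ZMod q) M}

omit hk2 in
theorem Cf.two (C : Cf H ρ O e T W' M') {x : X} (hx : x ∈ T) : ∃ j, x ^ 2 ^ j = 1 := by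
  obtain ⟨j, hj⟩ := C.p2 ⟨x, hx⟩
  exact ⟨j, congrArg Subtype.val hj⟩

omit hk2 in
theorem Cf.mono (C : Cf H ρ O e T W' M') {T' : Subgroup X} (h : T' ≤ T) : Cf H ρ O e T' W' M' :=
  ⟨C.p2.to_le h, C.ne, fun t ht => C.tW t (h ht), fun t ht => C.tM t (h ht), C.io, C.nd⟩

omit hk2 in
theorem ρmul (x y : X) (m : M) : ρ (x * y) m = ρ x (ρ y m) := by
  rw [map_mul, Module.End.mul_apply]

omit hk2 in
theorem Hmul (x y : X) (w : W) : H (x * y) w = H x (H y w) := by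
  rw [map_mul, Module.End.mul_apply]

omit hk2 in
theorem ρinv {x : X} {m n : M} (h : ρ x m = n) : ρ x⁻¹ n = m := by
  rw [← h, ← ρmul, inv_mul_cancel, map_one, Module.End.one_apply]

/-- nonorthogonal pair in the `-1`-space -/
theorem Cf.pair_neg (h : HD H ρ O e) (C : Cf H ρ O e T W' M') {b : X} (hb : b ∈ T)
    (hb2 : ∀ m ∈ M', ρ b (ρ b m) = m) {m : M} (hm : m ∈ M') (hbm : ρ b m = -m) (hm0 : m ≠ 0) :
    ∃ n ∈ M', ρ b n = -n ∧ e m n ≠ 1 := by
  obtain ⟨n, hn, hmn⟩ : ∃ n ∈ M', e m n ≠ 1 := by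
    by_contra hcon
    push Not at hcon
    exact hm0 (C.nd m hm hcon)
  refine ⟨n - ρ b n, sub_mem hn (C.tM b hb n hn), ?_, e_negfix h.pair h.inv hbm hmn⟩
  rw [map_sub, hb2 n hn, neg_sub]

theorem Cf.pair_fix (h : HD H ρ O e) (C : Cf H ρ O e T W' M') {b : X} (hb : b ∈ T)
    (hb2 : ∀ m ∈ M', ρ b (ρ b m) = m) {m : M} (hm : m ∈ M') (hbm : ρ b m = m) (hm0 : m ≠ 0) :
    ∃ n ∈ M', ρ b n = n ∧ e m n ≠ 1 := by
  obtain ⟨n, hn, hmn⟩ : ∃ n ∈ M', e m n ≠ 1 := by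
    by_contra hcon
    push Not at hcon
    exact hm0 (C.nd m hm hcon)
  refine ⟨n + ρ b n, add_mem hn (C.tM b hb n hn), ?_, e_fix h.pair h.inv hbm hmn⟩
  rw [map_add, hb2 n hn, add_comm]

/-- the `-1`-space of `b` -/
def neg (ρ : X →* Module.End (ZMod q) M) (b : X) (M' : Submodule (ZMod q) M) :
    Submodule (ZMod q) M where
  carrier := {m | m ∈ M' ∧ ρ b m = -m}
  zero_mem' := ⟨zero_mem _, by simp⟩
  add_mem' := fun {a c} ha hc => ⟨add_mem ha.1 hc.1, by rw [map_add, ha.2, hc.2, neg_add]⟩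
  smul_mem' := fun r a ha => ⟨M'.smul_mem r ha.1, by rw [map_smul, ha.2, smul_neg]⟩

/-- the fixed space of `b` -/
def fix (ρ : X →* Module.End (ZMod q) M) (b : X) (M' : Submodule (ZMod q) M) :
    Submodule (ZMod q) M where
  carrier := {m | m ∈ M' ∧ ρ b m = m}
  zero_mem' := ⟨zero_mem _, by simp⟩
  add_mem' := fun {a c} ha hc => ⟨add_mem ha.1 hc.1, by rw [map_add, ha.2, hc.2]⟩
  smul_mem' := fun r a ha => ⟨M'.smul_mem r ha.1, by rw [map_smul, ha.2]⟩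

theorem mem_neg {b : X} {m : M} : m ∈ neg ρ b M' ↔ m ∈ M' ∧ ρ b m = -m := Iff.rfl
theorem mem_fix {b : X} {m : M} : m ∈ fix ρ b M' ↔ m ∈ M' ∧ ρ b m = m := Iff.rfl

/-- Claim A with the `-1`-space of `b` -/
theorem Cf.claimA (h : HD H ρ O e) (C : Cf H ρ O e T W' M') {x b : X} (hx : x ∈ T) (hb : b ∈ T)
    (hb2 : ∀ m ∈ M', ρ b (ρ b m) = m) (hbne : ∃ m ∈ M', ρ b m ≠ m)
    (hxM : ∀ m ∈ M', ρ b m = -m → ρ x m = m)
    (hbx : ∀ w ∈ W', H b (H x w - w) = H x w - w) : ∀ w ∈ W', H x w = w := by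
  obtain ⟨m, hm, hbm⟩ := hbne
  have h1 : m - ρ b m ∈ M' := sub_mem hm (C.tM b hb m hm)
  have h2 : ρ b (m - ρ b m) = -(m - ρ b m) := by rw [map_sub, hb2 m hm, neg_sub]
  have h3 : m - ρ b m ≠ 0 := fun h => hbm (sub_eq_zero.1 h).symm
  obtain ⟨n, hn, hbn, hmn⟩ := C.pair_neg h hb hb2 h1 h2 h3
  exact h.claimA (M' := neg ρ b M') (fun m hm => C.io m hm.1) (C.two hx)
    (fun m hm => hxM m hm.1 hm.2) (fun m hm => hm.2) hbx ⟨_, ⟨h1, h2⟩, n, ⟨hn, hbn⟩, hmn⟩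

/-- Claim B -/
theorem Cf.claimB (h : HD H ρ O e) (C : Cf H ρ O e T W' M') {x b : X} (hx : x ∈ T) (hb : b ∈ T)
    (hb2 : ∀ m ∈ M', ρ b (ρ b m) = m) (hx2 : ∀ m ∈ M', ρ x (ρ x m) = m)
    (hbxc : ∀ m ∈ M', ρ b (ρ x m) = ρ x (ρ b m)) (hbne : ∃ m ∈ M', ρ b m ≠ m)
    (hbx : ∀ w ∈ W', H b (H x w - w) = H x w - w)
    (hbb : ∀ w ∈ W', H b (H b w - w) = H b w - w) :
    (∀ m ∈ M', ρ x m = m) ∨ (∀ m ∈ M', ρ x m = ρ b m) := by
  by_cases hcase : ∃ m ∈ M', m ≠ 0 ∧ ρ x m = m ∧ ρ b m = -m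
  · left
    obtain ⟨m, hm, hm0, hxm, hbm⟩ := hcase
    apply h.triv C.io C.ne C.nd (C.tM x hx)
    obtain ⟨n, hn, hmn⟩ : ∃ n ∈ M', e m n ≠ 1 := by
      by_contra hcon
      push Not at hcon
      exact hm0 (C.nd m hm hcon)
    have h1 := e_fix h.pair h.inv hxm hmn
    set n₁ := n + ρ x n with hn₁
    have hn₁M : n₁ ∈ M' := add_mem hn (C.tM x hx n hn)
    have hn₁x : ρ x n₁ = n₁ := by rw [hn₁, map_add, hx2 n hn, add_comm]
    have h2 := e_negfix h.pair h.inv hbm h1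
    refine h.claimA (M' := neg ρ b (fix ρ x M')) (fun m hm => C.io m hm.1.1) (C.two hx)
      (fun m hm => hm.1.2) (fun m hm => hm.2) hbx
      ⟨m, ⟨⟨hm, hxm⟩, hbm⟩, n₁ - ρ b n₁, ⟨⟨sub_mem hn₁M (C.tM b hb _ hn₁M), ?_⟩, ?_⟩, h2⟩
    · rw [map_sub, hn₁x, ← hbxc _ hn₁M, hn₁x]
    · rw [map_sub, hb2 _ hn₁M, neg_sub]
  · right
    push Not at hcase
    have h1 : ∀ m ∈ M', ρ b m = -m → ρ x m = -m := by
      intro m hm hbm
      have h2 : m + ρ x m ∈ M' := add_mem hm (C.tM x hx m hm)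
      have h3 : ρ x (m + ρ x m) = m + ρ x m := by rw [map_add, hx2 m hm, add_comm]
      have h4 : ρ b (m + ρ x m) = -(m + ρ x m) := by
        rw [map_add, hbxc m hm, hbm, map_neg, neg_add]
      by_contra h5
      refine hcase _ h2 ?_ h3 h4
      intro h6
      apply h5
      rw [eq_neg_iff_add_eq_zero, add_comm]
      exact h6
    have h2 : ∀ w ∈ W', H (x * b) w = w := by
      refine C.claimA h (mul_mem hx hb) hb hb2 hbne ?_ ?_
      · intro m hm hbm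
        rw [ρmul, hbm, map_neg, h1 m hm hbm, neg_neg]
      · intro w hw
        have h3 : H (x * b) w - w = (H x (H b w) - H b w) + (H b w - w) := by
          rw [Hmul]; abel
        rw [h3, map_add, hbb w hw, hbx _ (C.tW b hb w hw)]
    have h3 := h.triv C.io C.ne C.nd (C.tM _ (mul_mem hx hb)) h2
    intro m hm
    have h4 := h3 _ (C.tM b hb m hm)
    rw [ρmul, hb2 m hm] at h4
    exact h4

/-- the structure when `b` is central. -/
structure Ub (H : X →* Module.End k W) (ρ : X →* Module.End (ZMod q) M) (T : Subgroup X)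
    (W' : Submodule k W) (M' : Submodule (ZMod q) M) (b : X) : Prop where
  hb : b ∈ T
  hbx : ∀ x ∈ T, ∀ w ∈ W', H b (H x w - w) = H x w - w
  hc : ∀ x ∈ T, ∀ m ∈ M', ρ b (ρ x m) = ρ x (ρ b m)
  hne : ∃ m ∈ M', ρ b m ≠ m

theorem Cf.sq_of (h : HD H ρ O e) (C : Cf H ρ O e T W' M') {b : X} (hb : b ∈ T)
    (hbb : ∀ w ∈ W', H b (H b w - w) = H b w - w) : ∀ m ∈ M', ρ b (ρ b m) = m := by
  have h2 : (2 : k) = 0 := CharP.cast_eq_zero k 2
  have h1 : ∀ w ∈ W', H (b * b) w = w := by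
    intro w hw
    have h3 := hbb w hw
    rw [map_sub] at h3
    have h4 : H b (H b w) = (2 : k) • H b w - w := by
      rw [two_smul]
      rw [sub_eq_iff_eq_add] at h3
      rw [h3]; abel
    rw [Hmul, h4, h2, zero_smul, zero_sub]
    rw [neg_eq_iff_add_eq_zero, ← two_smul k, h2, zero_smul]
  have h3 := h.triv C.io C.ne C.nd (C.tM _ (mul_mem hb hb)) h1
  intro m hm
  rw [← ρmul]
  exact h3 m hm

theorem Ub.b2 (h : HD H ρ O e) (C : Cf H ρ O e T W' M') {b : X} (U : Ub H ρ T W' M' b) :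
    ∀ m ∈ M', ρ b (ρ b m) = m := C.sq_of h U.hb (U.hbx b U.hb)

theorem Ub.one (h : HD H ρ O e) (C : Cf H ρ O e T W' M') {b : X} (U : Ub H ρ T W' M' b)
    {x : X} (hx : x ∈ T) (hxM : ∀ m ∈ M', ρ x m = m) : ∀ w ∈ W', H x w = w :=
  C.claimA h hx U.hb (U.b2 h C) U.hne (fun m hm _ => hxM m hm) (U.hbx x hx)

theorem Ub.two (h : HD H ρ O e) (C : Cf H ρ O e T W' M') {b : X} (U : Ub H ρ T W' M' b)
    {x : X} (hx : x ∈ T) (hx2 : ∀ m ∈ M', ρ x (ρ x m) = m) :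
    (∀ m ∈ M', ρ x m = m) ∨ (∀ m ∈ M', ρ x m = ρ b m) :=
  C.claimB h hx U.hb (U.b2 h C) hx2 (U.hc x hx) U.hne (U.hbx x hx) (U.hbx b U.hb)

theorem Ub.sq (h : HD H ρ O e) (C : Cf H ρ O e T W' M') {b : X} (U : Ub H ρ T W' M' b)
    {x : X} (hx : x ∈ T) : (∀ m ∈ M', ρ x (ρ x m) = m) ∨ (∀ m ∈ M', ρ x (ρ x m) = ρ b m) := by
  classical
  have h2f : Fact (Nat.Prime 2) := ⟨Nat.prime_two⟩
  have hex : ∃ a, ∀ m ∈ M', ρ (x ^ 2 ^ a) m = m := by
    obtain ⟨j, hj⟩ := C.two hx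
    exact ⟨j, fun m _ => by rw [hj, map_one, Module.End.one_apply]⟩
  obtain ⟨ha, hmin⟩ := (⟨Nat.find_spec hex, fun i hi => Nat.find_min hex hi⟩ :
    (∀ m ∈ M', ρ (x ^ 2 ^ (Nat.find hex)) m = m) ∧
      ∀ i < Nat.find hex, ¬ ∀ m ∈ M', ρ (x ^ 2 ^ i) m = m)
  set a := Nat.find hex with hadef
  clear_value a
  clear hadef hex
  rcases Nat.lt_or_ge a 2 with ha2 | ha2
  · left
    intro m hm
    have h1 : ∀ m ∈ M', ρ (x ^ 2) m = m := by
      intro m hm
      have h2 : a = 0 ∨ a = 1 := by omega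
      rcases h2 with rfl | rfl
      · have h3 : ∀ m ∈ M', ρ x m = m := by simpa using ha
        rw [pow_two, ρmul, h3 m hm, h3 m hm]
      · simpa using ha m hm
    rw [← ρmul, ← pow_two]
    exact h1 m hm
  · set y := x ^ 2 ^ (a - 1) with hy
    have hyT : y ∈ T := pow_mem hx _
    have hy2 : ∀ m ∈ M', ρ y (ρ y m) = m := by
      intro m hm
      rw [← ρmul, hy, ← pow_add]
      have : 2 ^ (a - 1) + 2 ^ (a - 1) = 2 ^ a := by
        rw [← two_mul, ← pow_succ']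
        congr 1
        omega
      rw [this]
      exact ha m hm
    have hyb : ∀ m ∈ M', ρ y m = ρ b m := (U.two h C hyT hy2).resolve_left (hmin _ (by omega))
    rcases Nat.lt_or_ge a 3 with ha3 | ha3
    · right
      intro m hm
      have : a = 2 := by omega
      rw [← hyb m hm, hy, this, ← ρmul, ← pow_two]
      rfl
    · exfalso
      have hyb' : ∀ w ∈ W', H y w = H b w := by
        have h1 : ∀ w ∈ W', H (y * b⁻¹) w = w := by
          refine U.one h C (mul_mem hyT (inv_mem U.hb)) ?_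
          intro m hm
          have h2 : ρ b⁻¹ m ∈ M' := C.tM _ (inv_mem U.hb) m hm
          rw [ρmul, hyb _ h2, ← ρmul, mul_inv_cancel, map_one, Module.End.one_apply]
        intro w hw
        have h2 := h1 _ (C.tW b U.hb w hw)
        rwa [Hmul, ← Hmul b⁻¹ b, inv_mul_cancel, map_one, Module.End.one_apply] at h2
      have hx2 := C.two hx
      refine h.hh W' M' C.io x hx2 (C.tW x hx) (C.tM x hx) a ha3 ?_ ?_ ?_
      · refine U.one h C (pow_mem hx _) ha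
      · -- noncommuting
        by_contra hcon
        push Not at hcon
        obtain ⟨m, hm, hbm⟩ := U.hne
        have h1 : m - ρ b m ∈ M' := sub_mem hm (C.tM b U.hb m hm)
        have h2 : ρ b (m - ρ b m) = -(m - ρ b m) := by rw [map_sub, U.b2 h C m hm, neg_sub]
        have h3 : m - ρ b m ≠ 0 := fun h => hbm (sub_eq_zero.1 h).symm
        obtain ⟨n, hn, hbn, hmn⟩ := C.pair_neg h U.hb (U.b2 h C) h1 h2 h3
        apply C.ne
        refine h.key (M' := neg ρ b M') (fun m hm => C.io m hm.1) (fun m hm => hm.2) ?_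
          ⟨_, ⟨h1, h2⟩, n, ⟨hn, hbn⟩, hmn⟩
        intro m hm w hw
        have hw' : H b⁻¹ w ∈ W' := C.tW _ (inv_mem U.hb) w hw
        have h4 : H b (H b⁻¹ w) = w := by
          rw [← Hmul, mul_inv_cancel, map_one, Module.End.one_apply]
        refine ⟨H b⁻¹ w, hw', h4, ?_⟩
        rw [← hyb' _ (C.io m hm.1 _ hw'), hcon m hm.1 _ hw', hyb' _ hw', h4]
      · intro w hw
        have hw' : H x w - w ∈ W' := sub_mem (C.tW x hx w hw) hw
        have h1 : ((H x - 1) ^ (2 ^ (a - 1) + 1) : Module.End k W) w = H y (H x w - w) - (H x w - w) := by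
          rw [pow_succ, Module.End.mul_apply, HHLin.sub_one_pow (K := k) (p := 2),
            LinearMap.sub_apply, ← map_pow, Module.End.one_apply, LinearMap.sub_apply,
            Module.End.one_apply]
        rw [h1, hyb' _ hw', U.hbx x hx w hw, sub_self]

end

end Cfsg.Agent.Lib.DerHD
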