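import Mathlib
import Cfsg.Agent.Lib.ModRep

/-!
# Maschke's theorem for `ρ : G →* Module.End K V` (helper73), in the language of `Lib.ModRep`.
-/

set_option autoImplicit false

namespace Cfsg.Agent.Lib.ModMaschke

open Module Cfsg.Agent.Lib.ModRep

variable {K G V : Type*} [Field K] [Group G] [AddCommGroup V] [Module K V]

theorem maschke [Finite G] (hG : (Nat.card G : K) ≠ 0) (ρ : G →* Module.End K V) (W : Submodule K V) (hW : Inv ρ W) :
    ∃ W' : Submodule K V, Inv ρ W' ∧ IsCompl W W' := by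
  classical
  have := Fintype.ofFinite G
  obtain ⟨C, hC⟩ := Submodule.exists_isCompl W
  obtain ⟨π, hπ⟩ : ∃ π : Module.End K V, π = W.subtype ∘ₗ W.projectionOnto C hC := ⟨_, rfl⟩
  have hπ1 : ∀ v, π v ∈ W := by
    intro v; rw [hπ]; exact (W.projectionOnto C hC v).2
  have hπ2 : ∀ w ∈ W, π w = w := by
    intro w hw
    rw [hπ]
    change ((W.projectionOnto C hC w : W) : V) = w
    exact congrArg Subtype.val (Submodule.projectionOnto_apply_left hC ⟨w, hw⟩)
  obtain ⟨T, hT⟩ : ∃ T : Module.End K V, T = ((Nat.card G : K))⁻¹ • ∑ g : G, ρ g * π * ρ g⁻¹ := ⟨_, rfl⟩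
  have hTv : ∀ v, T v = ((Nat.card G : K))⁻¹ • ∑ g : G, ρ g (π (ρ g⁻¹ v)) := by
    intro v
    rw [hT, LinearMap.smul_apply, LinearMap.sum_apply]
    rfl
  have hT1 : ∀ v, T v ∈ W := by
    intro v
    rw [hTv]
    exact W.smul_mem _ (W.sum_mem (fun g _ => hW g _ (hπ1 _)))
  have hT2 : ∀ w ∈ W, T w = w := by
    intro w hw
    rw [hTv]
    have : ∀ g ∈ (Finset.univ : Finset G), ρ g (π (ρ g⁻¹ w)) = w := by
      intro g _
      rw [hπ2 _ (hW _ w hw), ← Module.End.mul_apply, ← map_mul, mul_inv_cancel, map_one, Module.End.one_apply]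
    rw [Finset.sum_congr rfl this, Finset.sum_const, Finset.card_univ, ← Nat.card_eq_fintype_card,
      ← Nat.cast_smul_eq_nsmul K, smul_smul, inv_mul_cancel₀ hG, one_smul]
  have hTc : ∀ (h : G) v, T (ρ h v) = ρ h (T v) := by
    intro h v
    rw [hTv, hTv, map_smul, map_sum]
    congr 1
    refine Fintype.sum_equiv (Equiv.mulLeft h⁻¹) _ _ ?_
    intro g
    simp only [Equiv.coe_mulLeft]
    rw [mul_inv_rev, inv_inv, map_mul, map_mul, Module.End.mul_apply, Module.End.mul_apply, ← Module.End.mul_apply (ρ h),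
      ← map_mul ρ h h⁻¹, mul_inv_cancel, map_one, Module.End.one_apply]
  refine ⟨LinearMap.ker T, ?_, ?_⟩
  · intro g w hw
    rw [LinearMap.mem_ker] at hw ⊢
    rw [hTc, hw, map_zero]
  · rw [isCompl_iff, disjoint_iff, codisjoint_iff]
    constructor
    · rw [eq_bot_iff]
      rintro w ⟨hw1, hw2⟩
      rw [Submodule.mem_bot, ← hT2 w hw1]
      exact hw2
    · rw [eq_top_iff]
      intro v _
      rw [Submodule.mem_sup]
      refine ⟨T v, hT1 v, v - T v, ?_, by abel⟩
      rw [LinearMap.mem_ker, map_sub, hT2 _ (hT1 v), sub_self]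

end Cfsg.Agent.Lib.ModMaschke
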