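import Mathlib
import Cfsg.Agent.Lib.ModRep
import Cfsg.Agent.Lib.ModMaschke

/-!
# Derived length of linear `p`-groups in coprime characteristic (helper73)

A `p`-group acting on a space of dimension `d` over a field of characteristic not `p`: the term
`log₂ d + 1` of its derived series acts trivially.
-/

set_option autoImplicit false

namespace Cfsg.Agent.Lib.DerLen

open Module Cfsg.Agent.Lib.ModRep Cfsg.Agent.Lib.ModMaschke

universe u v w

open scoped commutatorElement

theorem derivedSeries_le_map {P : Type u} [Group P] (M : Subgroup P) (h : commutator P ≤ M) (k : ℕ) :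
    derivedSeries P (k + 1) ≤ (derivedSeries M k).map M.subtype := by
  induction k with
  | zero =>
    rw [derivedSeries_one, derivedSeries_zero, ← MonoidHom.range_eq_map, M.range_subtype]
    exact h
  | succ k ih =>
    change ⁅derivedSeries P (k + 1), derivedSeries P (k + 1)⁆ ≤ (⁅derivedSeries M k, derivedSeries M k⁆ : Subgroup M).map M.subtype
    rw [Subgroup.map_commutator]
    exact Subgroup.commutator_mono ih ih

/-- second-centre type element for a non-commuting representation of a `p`-group -/
theorem exists_second_center {p : ℕ} [Fact p.Prime] {P : Type u} [Group P] [Finite P] (hP : IsPGroup p P)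
    (N : Subgroup P) [N.Normal] (hN : ∃ a b : P, a * b * a⁻¹ * b⁻¹ ∉ N) :
    ∃ x : P, (∃ g, g⁻¹ * x * g * x⁻¹ ∉ N) ∧ ∀ g h : P, (g⁻¹ * x * g * x⁻¹) * h * (g⁻¹ * x * g * x⁻¹)⁻¹ * h⁻¹ ∈ N := by
  set Z : Subgroup P := (Subgroup.center (P ⧸ N)).comap (QuotientGroup.mk' N) with hZ
  have hZn : Z.Normal := by rw [hZ]; infer_instance
  have hmem : ∀ x, x ∈ Z ↔ ∀ h, x * h * x⁻¹ * h⁻¹ ∈ N := by
    intro x
    rw [hZ, Subgroup.mem_comap, Subgroup.mem_center_iff]
    constructor
    · intro h g
      have h1 := h (QuotientGroup.mk' N g)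
      rw [← QuotientGroup.ker_mk' N, MonoidHom.mem_ker, map_mul, map_mul, map_mul, ← h1, map_inv, map_inv]
      group
    · intro h g
      obtain ⟨g, rfl⟩ := QuotientGroup.mk'_surjective N g
      have h1 := h g
      rw [← QuotientGroup.ker_mk' N, MonoidHom.mem_ker, map_mul, map_mul, map_mul, map_inv, map_inv,
        mul_inv_eq_one, mul_inv_eq_iff_eq_mul] at h1
      exact h1.symm
  have hnt : Nontrivial (P ⧸ Z) := by
    obtain ⟨a, b, hab⟩ := hN
    refine ⟨⟨QuotientGroup.mk a, 1, ?_⟩⟩
    intro h
    rw [QuotientGroup.eq_one_iff] at h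
    exact hab ((hmem a).1 h b)
  have hQ : IsPGroup p (P ⧸ Z) := hP.to_quotient Z
  have hc : Nontrivial (Subgroup.center (P ⧸ Z)) := hQ.center_nontrivial
  obtain ⟨c, hc1⟩ := exists_ne (1 : Subgroup.center (P ⧸ Z))
  obtain ⟨x, hx⟩ := QuotientGroup.mk_surjective (c : P ⧸ Z)
  have hxZ : x ∉ Z := by
    intro h
    apply hc1
    apply Subtype.ext
    rw [← hx]
    exact (QuotientGroup.eq_one_iff x).2 h
  refine ⟨x, ?_, ?_⟩
  · rw [hmem] at hxZ
    push Not at hxZ
    obtain ⟨g, hg⟩ := hxZ
    refine ⟨g⁻¹, ?_⟩
    intro h
    apply hg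
    have e : x * g * x⁻¹ * g⁻¹ = (g⁻¹⁻¹ * x * g⁻¹ * x⁻¹)⁻¹ := by group
    rw [e]
    exact inv_mem h
  · intro g h
    have h1 := Subgroup.mem_center_iff.1 c.2 (QuotientGroup.mk g⁻¹)
    rw [← hx] at h1
    have h2 : g⁻¹ * x * g * x⁻¹ ∈ Z := by
      rw [← QuotientGroup.eq_one_iff, QuotientGroup.mk_mul, QuotientGroup.mk_mul, QuotientGroup.mk_mul, h1,
        QuotientGroup.mk_inv, QuotientGroup.mk_inv]
      group
    exact (hmem _).1 h2 h

theorem derived_trivial {K : Type w} [Field K] [IsAlgClosed K] {p : ℕ} [Fact p.Prime] (hpK : (p : K) ≠ 0) (d : ℕ) :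
    ∀ {P : Type u} [Group P] [Finite P] (_ : IsPGroup p P) {V : Type v} [AddCommGroup V] [Module K V]
      [FiniteDimensional K V] (ρ : P →* Module.End K V), finrank K V = d →
      ∀ g ∈ derivedSeries P (Nat.log 2 d + 1), ρ g = 1 := by
  induction d using Nat.strong_induction_on with
  | _ d ih =>
  intro P _ _ hP V _ _ _ ρ hd
  have hanti : ∀ {m n : ℕ}, m ≤ n → derivedSeries P n ≤ derivedSeries P m := fun h => derivedSeries_antitone P h
  by_cases hsub : Subsingleton V
  · intro g _
    apply LinearMap.ext
    intro v
    exact Subsingleton.elim _ _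
  have hnt : Nontrivial V := not_subsingleton_iff_nontrivial.1 hsub
  by_cases hirr : ∀ W : Submodule K V, Inv ρ W → W = ⊥ ∨ W = ⊤
  · have hI : Irr ρ := ⟨hnt, hirr⟩
    by_cases hcomm : ∀ a b : P, ρ (a * b * a⁻¹ * b⁻¹) = 1
    · intro g hg
      have h1 : commutator P ≤ ρ.ker := by
        rw [commutator_def, Subgroup.commutator_le]
        intro a _ b _
        rw [commutatorElement_def]
        exact hcomm a b
      have h2 := hanti (show 1 ≤ Nat.log 2 d + 1 by omega) hg
      rw [derivedSeries_one] at h2
      exact h1 h2
    · -- the Clifford step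
      push Not at hcomm
      obtain ⟨a0, b0, hab0⟩ := hcomm
      obtain ⟨x, ⟨g0, hg0⟩, hx⟩ := exists_second_center hP ρ.ker ⟨a0, b0, hab0⟩
      have hker : ∀ {y : P}, y ∈ ρ.ker ↔ ρ y = 1 := fun {y} => MonoidHom.mem_ker
      -- scalars
      have hsc : ∀ g : P, ∃ c : K, ρ (g⁻¹ * x * g * x⁻¹) = c • 1 := by
        intro g
        apply schur hI
        intro h
        have h1 := hker.1 (hx g h)
        have e : (g⁻¹ * x * g * x⁻¹) * h = ((g⁻¹ * x * g * x⁻¹) * h * (g⁻¹ * x * g * x⁻¹)⁻¹ * h⁻¹) * (h * (g⁻¹ * x * g * x⁻¹)) := by group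
        rw [← map_mul, e, map_mul, h1, one_mul, map_mul]
      choose μ hμ using hsc
      have hcx : ∀ g : P, ρ x * ρ g = μ g • (ρ g * ρ x) := by
        intro g
        have e : x * g = g * (g⁻¹ * x * g * x⁻¹) * x := by group
        rw [← map_mul, e, map_mul, map_mul, hμ]
        simp
      have hcx' : ∀ (g : P) (v : V), ρ x (ρ g v) = μ g • ρ g (ρ x v) := by
        intro g v
        have := congrArg (fun f : Module.End K V => f v) (hcx g)
        simpa using this
      have hinv : ∀ (g : P) (v : V), ρ g⁻¹ (ρ g v) = v := by
        intro g v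
        rw [← Module.End.mul_apply, ← map_mul, inv_mul_cancel, map_one, Module.End.one_apply]
      have hinv' : ∀ (g : P) (v : V), ρ g (ρ g⁻¹ v) = v := by
        intro g v
        rw [← Module.End.mul_apply, ← map_mul, mul_inv_cancel, map_one, Module.End.one_apply]
      have hinj : ∀ g : P, Function.Injective (ρ g) := fun g => Function.LeftInverse.injective (hinv g)
      obtain ⟨v0, hv0⟩ := exists_ne (0 : V)
      have hμmul : ∀ g h : P, μ (g * h) = μ g * μ h := by
        intro g h
        have h1 := hcx' (g * h) v0
        rw [map_mul, Module.End.mul_apply, Module.End.mul_apply, hcx', hcx', map_smul, smul_smul] at h1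
        have h2 : ρ g (ρ h (ρ x v0)) ≠ 0 := by
          intro h3
          rw [← map_zero (ρ g)] at h3
          have h4 := hinj g h3
          rw [← map_zero (ρ h)] at h4
          have h5 := hinj h h4
          rw [← map_zero (ρ x)] at h5
          exact hv0 (hinj x h5)
        have h3 : (μ g * μ h - μ (g * h)) • ρ g (ρ h (ρ x v0)) = 0 := by
          rw [sub_smul, h1, sub_self]
        rcases smul_eq_zero.1 h3 with h4 | h4
        · rw [sub_eq_zero] at h4; exact h4.symm
        · exact absurd h4 h2
      have hμ1 : μ 1 = 1 := by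
        have h1 := hμ 1
        have e : (1 : P)⁻¹ * x * 1 * x⁻¹ = 1 := by group
        rw [e, map_one] at h1
        have h2 := congrArg (fun f : Module.End K V => f v0) h1
        simp only [Module.End.one_apply, LinearMap.smul_apply] at h2
        have h3 : (1 - μ 1) • v0 = 0 := by rw [sub_smul, one_smul, ← h2, sub_self]
        rcases smul_eq_zero.1 h3 with h4 | h4
        · rw [sub_eq_zero] at h4; exact h4.symm
        · exact absurd h4 hv0
      let M : Subgroup P :=
        { carrier := {g | μ g = 1}
          one_mem' := hμ1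
          mul_mem' := fun {a b} ha hb => by
            change μ (a * b) = 1
            rw [hμmul, (ha : μ a = 1), (hb : μ b = 1), one_mul]
          inv_mem' := fun {a} ha => by
            change μ a⁻¹ = 1
            have h1 := hμmul a a⁻¹
            rw [mul_inv_cancel, hμ1, (ha : μ a = 1), one_mul] at h1
            exact h1.symm }
      have hMmem : ∀ g, g ∈ M ↔ μ g = 1 := fun g => Iff.rfl
      have hPM : commutator P ≤ M := by
        rw [commutator_def, Subgroup.commutator_le]
        intro a _ b _
        rw [commutatorElement_def, hMmem, hμmul, hμmul, hμmul]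
        have h1 := hμmul a a⁻¹
        have h2 := hμmul b b⁻¹
        rw [mul_inv_cancel, hμ1] at h1 h2
        calc μ a * μ b * μ a⁻¹ * μ b⁻¹ = (μ a * μ a⁻¹) * (μ b * μ b⁻¹) := by ring
          _ = 1 := by rw [← h1, ← h2, one_mul]
      -- eigenspaces
      let E : K → Submodule K V := fun l => Module.End.eigenspace (ρ x) l
      have hE : ∀ (l : K) (v : V), v ∈ E l ↔ ρ x v = l • v := fun l v => Module.End.mem_eigenspace_iff
      have hEmap : ∀ (g : P) (l : K) (v : V), v ∈ E l → ρ g v ∈ E (μ g * l) := by
        intro g l v hv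
        rw [hE] at hv ⊢
        rw [hcx', hv, map_smul, smul_smul]
      have htop : ⨆ l, E l = ⊤ := by
        have h1 : Inv ρ (⨆ l, E l) := by
          intro g v hv
          induction hv using Submodule.iSup_induction' with
          | mem l v hv => exact Submodule.mem_iSup_of_mem _ (hEmap g l v hv)
          | zero => rw [map_zero]; exact Submodule.zero_mem _
          | add v w _ _ hv hw => rw [map_add]; exact Submodule.add_mem _ hv hw
        rcases hirr _ h1 with h2 | h2
        · exfalso
          obtain ⟨c, hc⟩ := Module.End.exists_eigenvalue (ρ x)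
          apply hc
          rw [eq_bot_iff, ← h2]
          exact le_iSup E c
        · exact h2
      have hμ0 : μ g0 ≠ 1 := by
        intro h
        apply hg0
        rw [hker, hμ, h, one_smul]
      -- the action on each eigenspace
      have hact : ∀ (l : K) (m : M), m ∈ derivedSeries M (Nat.log 2 d) → ∀ v ∈ E l, ρ (m : P) v = v := by
        intro l m hm v hv
        by_cases hv1 : v = 0
        · rw [hv1, map_zero]
        have hl : l ≠ 0 := by
          rintro rfl
          rw [hE, zero_smul, ← map_zero (ρ x)] at hv
          exact hv1 (hinj x hv)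
        have hinvE : Inv (ρ.comp M.subtype) (E l) := by
          intro g w hw
          have := hEmap (g : P) l w hw
          rw [(hMmem _).1 g.2, one_mul] at this
          exact this
        have hdisj : Disjoint (E l) (E (μ g0 * l)) := by
          rw [Submodule.disjoint_def]
          intro y hy1 hy2
          rw [hE] at hy1 hy2
          rw [hy1] at hy2
          have h5 : ((μ g0 - 1) * l) • y = 0 := by rw [sub_mul, one_mul, sub_smul, ← hy2, sub_self]
          rcases smul_eq_zero.1 h5 with h3 | h3
          · exfalso
            apply hμ0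
            rcases mul_eq_zero.1 h3 with h4 | h4
            · exact sub_eq_zero.1 h4
            · exact absurd h4 hl
          · exact h3
        have hdim : finrank K (E l) ≤ finrank K (E (μ g0 * l)) := by
          let f : E l →ₗ[K] E (μ g0 * l) := (ρ g0).restrict (fun v hv => hEmap g0 l v hv)
          apply LinearMap.finrank_le_finrank_of_injective (f := f)
          intro a b hab
          apply Subtype.ext
          apply hinj g0
          exact congrArg Subtype.val hab
        have hdim2 : finrank K (E l) + finrank K (E (μ g0 * l)) ≤ d := by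
          rw [← hd]
          exact Submodule.finrank_add_finrank_le_of_disjoint hdisj
        have hpos : 0 < finrank K (E l) := by
          have : Nontrivial (E l) := ⟨⟨⟨v, hv⟩, 0, fun h => hv1 (congrArg Subtype.val h)⟩⟩
          exact Module.finrank_pos
        have hlt : finrank K (E l) < d := by omega
        have hlog : Nat.log 2 (finrank K (E l)) + 1 ≤ Nat.log 2 d := by
          have h1 : finrank K (E l) ≤ d / 2 := by omega
          have h2 : Nat.log 2 d = Nat.log 2 (d / 2) + 1 := by
            rw [Nat.log_of_one_lt_of_le (by norm_num) (by omega)]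
          rw [h2]
          exact Nat.succ_le_succ (Nat.log_mono_right h1)
        have h1 := ih _ hlt (hP.to_subgroup M) (subrep (ρ.comp M.subtype) (E l) hinvE) rfl m
          (derivedSeries_antitone M hlog hm)
        have h2 := congrArg (fun f : Module.End K (E l) => ((f ⟨v, hv⟩ : E l) : V)) h1
        exact h2
      intro g hg
      obtain ⟨m, hm, rfl⟩ := derivedSeries_le_map M hPM _ hg
      apply LinearMap.ext
      intro v
      have hv : v ∈ ⨆ l, E l := by rw [htop]; trivial
      induction hv using Submodule.iSup_induction' with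
      | mem l v hv => exact hact l m hm v hv
      | zero => simp
      | add v w _ _ hv hw => rw [map_add, hv, hw]; rfl
  · push Not at hirr
    obtain ⟨W, hW, hW0, hW1⟩ := hirr
    have hG : (Nat.card P : K) ≠ 0 := by
      obtain ⟨n, hn⟩ := IsPGroup.iff_card.1 hP
      rw [hn, Nat.cast_pow]
      exact pow_ne_zero _ hpK
    obtain ⟨W', hW', hc⟩ := maschke hG ρ W hW
    have hadd := Submodule.finrank_add_eq_of_isCompl hc
    have hp1 : 0 < finrank K W := by
      have : Nontrivial W := Submodule.nontrivial_iff_ne_bot.2 hW0
      exact Module.finrank_pos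
    have hp2 : finrank K W < d := by
      rw [← hd]; exact Submodule.finrank_lt hW1
    have hp3 : finrank K W' < d := by omega
    intro g hg
    have h1 := ih _ hp2 hP (subrep ρ W hW) rfl g (hanti (by
      have := Nat.log_mono_right (b := 2) hp2.le; omega) hg)
    have h2 := ih _ hp3 hP (subrep ρ W' hW') rfl g (hanti (by
      have := Nat.log_mono_right (b := 2) hp3.le; omega) hg)
    apply LinearMap.ext
    intro v
    have hv : v ∈ W ⊔ W' := by rw [hc.sup_eq_top]; trivial
    obtain ⟨a, ha, b, hb, rfl⟩ := Submodule.mem_sup.1 hv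
    have e1 : ρ g a = a := congrArg (fun f : Module.End K W => ((f ⟨a, ha⟩ : W) : V)) h1
    have e2 : ρ g b = b := congrArg (fun f : Module.End K W' => ((f ⟨b, hb⟩ : W') : V)) h2
    rw [map_add, e1, e2]; rfl

/-- the same over an arbitrary field of characteristic not `p`. -/
theorem derived_trivial_field {E : Type w} [Field E] {p : ℕ} [Fact p.Prime] (hpK : (p : E) ≠ 0)
    {P : Type u} [Group P] [Finite P] (hP : IsPGroup p P) {V : Type v} [AddCommGroup V] [Module E V]
    [FiniteDimensional E V] (ρ : P →* Module.End E V) (g : P) (hg : g ∈ derivedSeries P (Nat.log 2 (finrank E V) + 1)) :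
    ρ g = 1 := by
  let K := AlgebraicClosure E
  let σ : P →* Module.End K (TensorProduct E K V) := (Module.End.baseChangeHom E K V).toMonoidHom.comp ρ
  have h1 := derived_trivial (K := K) (p := p) (by
    intro h
    apply hpK
    have h2 : algebraMap E K (p : E) = 0 := by rw [map_natCast]; exact h
    exact (map_eq_zero _).1 h2) _ hP σ rfl g (by rwa [Module.finrank_baseChange])
  have h2 : Module.End.baseChangeHom E K V (ρ g) = Module.End.baseChangeHom E K V 1 := by
    rw [map_one]; exact h1
  exact LinearMap.baseChangeHom_injective (R := E) (S := K) (M := V) (N := V) h2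

end Cfsg.Agent.Lib.DerLen
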