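import Mathlib
import Cfsg.Agent.Lib.H70HallPetrescu
import Cfsg.Agent.Lib.PGroupOdd
import Cfsg.Agent.Lib.Tate
import Cfsg.Agent.Lib.H64Metacyclic

/-! The order of a finite `p`-group of derived length `k + 1` (helper79).

If `H ⊲ G` and `H ≤ γ_l(G)`, `H' ≠ 1` then `|H : H'| ≥ p ^ (l + 1)`, and in case of equality
`H'' ≤ γ_{4l+1}(G)`. -/

set_option autoImplicit false
open scoped commutatorElement

namespace Cfsg.Agent.Lib.DerLen79

open Subgroup Cfsg.Agent.Lib

section types

variable {X : Type*} [Group X] [Finite X] {p : ℕ} [hp : Fact p.Prime]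

omit [Finite X] in
theorem comm_eq_bot_of_comm (h : ∀ a b : X, a * b = b * a) : commutator X = ⊥ := by
  rw [eq_bot_iff, _root_.commutator_def, commutator_le]
  intro a _ b _
  rw [mem_bot, commutatorElement_eq_one_iff_mul_comm]
  exact h a b

/-- two consecutive steps above the center. -/
theorem two_steps (hX : IsPGroup p X) (h : commutator X ≠ ⊥) : ∃ (A : Subgroup X) (y : X),
    center X ≤ A ∧ (∀ a ∈ A, ∀ b ∈ A, a * b = b * a) ∧ A.Normal ∧ Nat.card A = p * Nat.card (center X) ∧
    Nat.card ↥(A ⊔ zpowers y) = p ^ 2 * Nat.card (center X) := by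
  have h0 : center X < ⊤ := by
    refine lt_of_le_of_ne le_top ?_
    intro h1
    apply h
    apply comm_eq_bot_of_comm
    intro a b
    have : b ∈ center X := by rw [h1]; exact mem_top b
    exact mem_center_iff.1 this a
  obtain ⟨x, -, hxM, hxp, hxg⟩ := PGroupOdd.exists_mem_step hX (inferInstance : (center X).Normal)
    (inferInstance : (⊤ : Subgroup X).Normal) h0
  have hAn := PGroupOdd.normal_sup_zpowers (inferInstance : (center X).Normal) hxg
  have hAc := PGroupOdd.card_sup_zpowers (inferInstance : (center X).Normal) hxM hxp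
  have hAab : ∀ a ∈ center X ⊔ zpowers x, ∀ b ∈ center X ⊔ zpowers x, a * b = b * a := by
    have h1 : IsMulCommutative (center X) := inferInstance
    have h2 := PGroupOdd.isMulCommutative_sup_zpowers h1 (x := x) (by
      rw [mem_centralizer_iff]
      intro z hz
      exact (mem_center_iff.1 hz x).symm)
    intro a ha b hb
    exact PGroupOdd.comm_of_isMulCommutative h2 ha hb
  have h1 : center X ⊔ zpowers x < ⊤ := by
    refine lt_of_le_of_ne le_top ?_
    intro h1
    apply h
    apply comm_eq_bot_of_comm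
    intro a b
    exact hAab a (by rw [h1]; exact mem_top a) b (by rw [h1]; exact mem_top b)
  obtain ⟨y, -, hyM, hyp, hyg⟩ := PGroupOdd.exists_mem_step hX hAn
    (inferInstance : (⊤ : Subgroup X).Normal) h1
  refine ⟨_, y, le_sup_left, hAab, hAn, hAc, ?_⟩
  rw [PGroupOdd.card_sup_zpowers hAn hyM hyp, hAc, ← mul_assoc, sq]

theorem sq_mul_card_center_le (hX : IsPGroup p X) (h : commutator X ≠ ⊥) :
    p ^ 2 * Nat.card (center X) ≤ Nat.card X := by
  obtain ⟨A, y, -, -, -, -, h5⟩ := two_steps hX h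
  rw [← h5]
  exact Nat.card_le_card_of_injective _ Subtype.val_injective

theorem cube_mul_card_center_le (hX : IsPGroup p X) (h : p < Nat.card (commutator X)) :
    p ^ 3 * Nat.card (center X) ≤ Nat.card X := by
  have hne : commutator X ≠ ⊥ := by
    intro h1
    rw [h1, card_bot] at h
    exact absurd h (not_lt.2 hp.out.one_lt.le)
  obtain ⟨A, y, h1, h2, h3, h4, h5⟩ := two_steps hX hne
  by_contra hlt
  push Not at hlt
  -- then `A ⊔ zpowers y = ⊤`
  have htop : A ⊔ zpowers y = ⊤ := by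
    obtain ⟨a, ha⟩ := IsPGroup.iff_card.mp hX
    obtain ⟨b, hb⟩ := IsPGroup.iff_card.mp (hX.to_subgroup (center X))
    rw [ha, hb, ← pow_add] at hlt
    have h6 := (Nat.pow_lt_pow_iff_right hp.out.one_lt).1 hlt
    apply eq_top_of_le_card
    rw [h5, ha, hb, ← pow_add]
    exact Nat.pow_le_pow_right hp.out.pos (by omega)
  have h6 := H64Metacyclic.card_commutator_mul A h2 y (by
    rw [Subgroup.normalizer_eq_top]; exact mem_top y)
  rw [htop, ← _root_.commutator_def] at h6
  have h7 : center X ≤ A ⊓ centralizer ({y} : Set X) := by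
    refine le_inf h1 ?_
    intro z hz
    rw [mem_centralizer_singleton_iff]
    exact (mem_center_iff.1 hz y).symm
  have h8 : Nat.card (center X) ≤ Nat.card ↥(A ⊓ centralizer ({y} : Set X)) :=
    Subgroup.card_le_of_le h7
  rw [h4] at h6
  have h9 : p * Nat.card (center X) < Nat.card (commutator X) * Nat.card (center X) :=
    Nat.mul_lt_mul_of_pos_right h Nat.card_pos
  have h10 := Nat.mul_le_mul_left (Nat.card (commutator X)) h8
  omega

end types

section main

variable {G : Type*} [Group G]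

theorem comm_ucs_le (n : ℕ) : ⁅Subgroup.upperCentralSeries G n, (⊤ : Subgroup G)⁆ ≤
    Subgroup.upperCentralSeries G (n - 1) := by
  cases n with
  | zero =>
    rw [Subgroup.upperCentralSeries_zero, commutator_bot_left]
  | succ n =>
    rw [commutator_le]
    intro a ha b _
    exact (Subgroup.mem_upperCentralSeries_succ_iff).1 ha b

/-- `[γ_{m+1}, Z_n] ≤ Z_{n-m-1}`. -/
theorem comm_lcs_ucs_le (m : ℕ) : ∀ n : ℕ, ⁅(⊤ : Subgroup G).lowerCentralSeries m,
    Subgroup.upperCentralSeries G n⁆ ≤ Subgroup.upperCentralSeries G (n - (m + 1)) := by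
  induction m with
  | zero =>
    intro n
    rw [Subgroup.commutator_comm]
    exact comm_ucs_le n
  | succ m ih =>
    intro n
    rw [Subgroup.lowerCentralSeries_succ]
    apply HBBasic.three_subgroups_le
    · rw [Subgroup.commutator_comm ⊤, Subgroup.commutator_comm]
      refine (Subgroup.commutator_mono le_rfl (comm_ucs_le n)).trans ?_
      refine (ih (n - 1)).trans (le_of_eq ?_)
      congr 1
      omega
    · rw [Subgroup.commutator_comm (Subgroup.upperCentralSeries G n)]
      refine (Subgroup.commutator_mono (ih n) le_rfl).trans ?_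
      refine (comm_ucs_le _).trans (le_of_eq ?_)
      congr 1

/-- `γ_{m+1}` and `Z_{m+1}` commute. -/
theorem comm_lcs_ucs_eq_bot (m : ℕ) : ⁅(⊤ : Subgroup G).lowerCentralSeries m,
    Subgroup.upperCentralSeries G (m + 1)⁆ = ⊥ := by
  rw [eq_bot_iff]
  refine (comm_lcs_ucs_le m (m + 1)).trans ?_
  rw [Nat.sub_self, Subgroup.upperCentralSeries_zero]

variable [Finite G] {p : ℕ} [hp : Fact p.Prime]

theorem step (hG : IsPGroup p G) {H : Subgroup G} [hH : H.Normal] {j : ℕ}
    (h : ¬ H ≤ Subgroup.upperCentralSeries G j) :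
    p * Nat.card ↥(Subgroup.upperCentralSeries G j ⊓ H) ≤
      Nat.card ↥(Subgroup.upperCentralSeries G (j + 1) ⊓ H) := by
  have hM : (Subgroup.upperCentralSeries G j ⊓ H).Normal := inferInstance
  have hlt : Subgroup.upperCentralSeries G j ⊓ H < H := by
    refine lt_of_le_of_ne inf_le_right ?_
    intro h1
    exact h (inf_eq_right.1 h1)
  obtain ⟨x, hxH, hxM, hxp, hxg⟩ := PGroupOdd.exists_mem_step hG hM hH hlt
  rw [← PGroupOdd.card_sup_zpowers hM hxM hxp]
  apply Subgroup.card_le_of_le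
  refine sup_le (inf_le_inf_right _ (Subgroup.upperCentralSeries_mono G (Nat.le_succ j))) ?_
  rw [zpowers_le]
  refine ⟨?_, hxH⟩
  change x ∈ Subgroup.upperCentralSeries G (j + 1)
  rw [Subgroup.mem_upperCentralSeries_succ_iff]
  intro g
  have h1 := (hxg g).1
  have h2 : ⁅x, g⁆ = ⁅g, x⁆⁻¹ := by
    rw [commutatorElement_def, commutatorElement_def]; group
  rw [h2]
  exact Subgroup.inv_mem _ h1

theorem steps (hG : IsPGroup p G) {H : Subgroup G} [hH : H.Normal] {j : ℕ} (t : ℕ)
    (h : ¬ H ≤ Subgroup.upperCentralSeries G (j + t)) :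
    p ^ t * Nat.card ↥(Subgroup.upperCentralSeries G j ⊓ H) ≤
      Nat.card ↥(Subgroup.upperCentralSeries G (j + t) ⊓ H) := by
  induction t with
  | zero => simp
  | succ t ih =>
    have h1 : ¬ H ≤ Subgroup.upperCentralSeries G (j + t) := fun h2 =>
      h (h2.trans (Subgroup.upperCentralSeries_mono G (by omega)))
    have h2 := step hG h1
    have h3 := Nat.mul_le_mul_left p (ih h1)
    rw [pow_succ, mul_comm (p ^ t) p, mul_assoc]
    exact h3.trans h2

omit [Finite G] in
theorem not_le_ucs {H : Subgroup G} {m : ℕ} (hm : H ≤ (⊤ : Subgroup G).lowerCentralSeries m)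
    (hne : ⁅H, H⁆ ≠ ⊥) : ¬ H ≤ Subgroup.upperCentralSeries G (m + 1) := by
  intro h
  apply hne
  rw [eq_bot_iff, ← comm_lcs_ucs_eq_bot m]
  exact Subgroup.commutator_mono hm h

theorem card_inf_ucs_le {H : Subgroup G} {m : ℕ} (hm : H ≤ (⊤ : Subgroup G).lowerCentralSeries m) :
    Nat.card ↥(Subgroup.upperCentralSeries G (m + 1) ⊓ H) ≤ Nat.card (center H) := by
  have h1 : Subgroup.upperCentralSeries G (m + 1) ⊓ H ≤ (center H).map H.subtype := by
    rintro x ⟨hx, hxH⟩
    refine ⟨⟨x, hxH⟩, ?_, rfl⟩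
    change (⟨x, hxH⟩ : H) ∈ center H
    rw [mem_center_iff]
    rintro ⟨g, hg⟩
    apply Subtype.ext
    change g * x = x * g
    rw [← commutatorElement_eq_one_iff_mul_comm, ← Subgroup.mem_bot, ← comm_lcs_ucs_eq_bot m]
    exact Subgroup.commutator_mem_commutator (hm hg) hx
  refine (Subgroup.card_le_of_le h1).trans ?_
  rw [Subgroup.card_map_of_injective H.subtype_injective]

omit [Finite G] in
theorem card_comm (H : Subgroup G) : Nat.card (commutator H) = Nat.card ↥⁅H, H⁆ := by
  rw [← Subgroup.map_subtype_commutator, Subgroup.card_map_of_injective H.subtype_injective]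

/-- `H ≤ γ_{m+1}` normal, nonabelian: `|H| ≥ p ^ (m + 3)`. -/
theorem card_ge (hG : IsPGroup p G) {H : Subgroup G} [hH : H.Normal] {m : ℕ}
    (hm : H ≤ (⊤ : Subgroup G).lowerCentralSeries m) (hne : ⁅H, H⁆ ≠ ⊥) : p ^ (m + 3) ≤ Nat.card H := by
  have h1 := not_le_ucs hm hne
  have h2 := steps (j := 0) hG (m + 1) (by rwa [zero_add])
  rw [zero_add] at h2
  have h3 := card_inf_ucs_le hm
  have h4 := sq_mul_card_center_le (hG.to_subgroup H) (by
    intro h5
    apply hne
    rw [← Subgroup.card_eq_one, ← card_comm, h5, card_bot])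
  have h5 : p ^ (m + 1) ≤ Nat.card (center H) := by
    refine le_trans ?_ (h2.trans h3)
    exact Nat.le_mul_of_pos_right _ Nat.card_pos
  calc p ^ (m + 3) = p ^ 2 * p ^ (m + 1) := by rw [← pow_add]; congr 1; omega
    _ ≤ p ^ 2 * Nat.card (center H) := Nat.mul_le_mul_left _ h5
    _ ≤ _ := h4

/-- `H ≤ γ_{m+1}` normal, `|H'| > p`, `|Z(G) ∩ H| ≥ p ^ 2`: `|H| ≥ p ^ (m + 5)`. -/
theorem card_ge' (hG : IsPGroup p G) {H : Subgroup G} [hH : H.Normal] {m : ℕ}
    (hm : H ≤ (⊤ : Subgroup G).lowerCentralSeries m) (hne : p < Nat.card ↥⁅H, H⁆)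
    (hc : p ^ 2 ≤ Nat.card ↥(center G ⊓ H)) : p ^ (m + 5) ≤ Nat.card H := by
  have hne' : ⁅H, H⁆ ≠ ⊥ := by
    intro h
    rw [h, card_bot] at hne
    exact absurd hne (not_lt.2 hp.out.one_lt.le)
  have h1 := not_le_ucs hm hne'
  have h2 := steps (j := 1) hG m (by rwa [add_comm])
  rw [Subgroup.upperCentralSeries_one, add_comm 1 m] at h2
  have h3 := card_inf_ucs_le hm
  have h4 := cube_mul_card_center_le (hG.to_subgroup H) (by rwa [card_comm])
  have h5 : p ^ (m + 2) ≤ Nat.card (center H) := by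
    refine le_trans ?_ (h2.trans h3)
    rw [pow_add]
    exact Nat.mul_le_mul_left _ hc
  calc p ^ (m + 5) = p ^ 3 * p ^ (m + 2) := by rw [← pow_add]; congr 1; omega
    _ ≤ p ^ 3 * Nat.card (center H) := Nat.mul_le_mul_left _ h5
    _ ≤ _ := h4

omit [Finite G] in
theorem lcs_map_le (K : Subgroup G) [K.Normal] {H : Subgroup G} {m : ℕ}
    (hm : H ≤ (⊤ : Subgroup G).lowerCentralSeries m) :
    H.map (QuotientGroup.mk' K) ≤ (⊤ : Subgroup (G ⧸ K)).lowerCentralSeries m := by
  refine (Subgroup.map_mono hm).trans ?_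
  induction m with
  | zero => exact le_top
  | succ m ih =>
    rw [Subgroup.lowerCentralSeries_succ, Subgroup.lowerCentralSeries_succ, Subgroup.map_commutator]
    refine Subgroup.commutator_mono (ih (hm.trans ?_)) le_top
    exact Subgroup.lowerCentralSeries_antitone _ (Nat.le_succ m)

omit [Finite G] in
theorem card_map_mk {K H : Subgroup G} [hK : K.Normal] (hKH : K ≤ H) :
    Nat.card ↥(H.map (QuotientGroup.mk' K)) * Nat.card K = Nat.card H := by
  have h1 := SubgroupTools.card_map_mul_card_inf_ker (QuotientGroup.mk' K) H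
  rwa [QuotientGroup.ker_mk', inf_eq_right.2 hKH] at h1

/-- (A) `|H : H'| ≥ p ^ (m + 2)` if `H ≤ γ_{m+1}` is normal and nonabelian. -/
theorem card_quot_ge (hG : IsPGroup p G) {H : Subgroup G} [hH : H.Normal] {m : ℕ}
    (hm : H ≤ (⊤ : Subgroup G).lowerCentralSeries m) (hne : ⁅H, H⁆ ≠ ⊥) :
    p ^ (m + 2) * Nat.card ↥⁅H, H⁆ ≤ Nat.card H := by
  obtain ⟨K, hK, hlt, -, hidx⟩ := Tate.exists_normal_index_p hG ⁅H, H⁆ hne
  have hKH : K ≤ H := hlt.le.trans (Subgroup.commutator_le_left H H)
  have h1 : Nat.card ↥⁅H, H⁆ = Nat.card K * p := by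
    rw [← hidx]
    exact (SubgroupTools.card_mul_relIndex_of_le hlt.le).symm
  have h2 := card_map_mk hKH
  have hn : (H.map (QuotientGroup.mk' K)).Normal := hH.map _ (QuotientGroup.mk'_surjective K)
  have h3 := card_ge (hG.to_quotient K) (lcs_map_le K hm) (by
    rw [← Subgroup.map_commutator]
    intro h4
    rw [Subgroup.map_eq_bot_iff, QuotientGroup.ker_mk'] at h4
    exact hlt.2 h4)
  rw [← h2, h1]
  calc p ^ (m + 2) * (Nat.card K * p) = p ^ (m + 3) * Nat.card K := by
        rw [pow_succ p (m + 2)]; ring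
    _ ≤ _ := Nat.mul_le_mul_right _ h3

/-- (B) if `|H : H'| = p ^ (m + 2)` then `H'` has a unique maximal `G`-normal subgroup. -/
theorem unique_max (hG : IsPGroup p G) {H : Subgroup G} [hH : H.Normal] {m : ℕ}
    (hm : H ≤ (⊤ : Subgroup G).lowerCentralSeries m)
    (heq : Nat.card H = p ^ (m + 2) * Nat.card ↥⁅H, H⁆) {K L : Subgroup G} [hK : K.Normal] [hL : L.Normal]
    (hKH : K ≤ ⁅H, H⁆) (hLH : L ≤ ⁅H, H⁆) (hKi : K.relIndex ⁅H, H⁆ = p) (hLi : L.relIndex ⁅H, H⁆ = p)
    (hKc : ⁅⁅H, H⁆, (⊤ : Subgroup G)⁆ ≤ K) (hLc : ⁅⁅H, H⁆, (⊤ : Subgroup G)⁆ ≤ L) : K = L := by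
  by_contra hne
  have hpp := hp.out
  have c1 : Nat.card K * p = Nat.card ↥⁅H, H⁆ := by
    rw [← hKi]; exact SubgroupTools.card_mul_relIndex_of_le hKH
  have c2 : Nat.card L * p = Nat.card ↥⁅H, H⁆ := by
    rw [← hLi]; exact SubgroupTools.card_mul_relIndex_of_le hLH
  have c3 : Nat.card K = Nat.card L := Nat.eq_of_mul_eq_mul_right hpp.pos (c1.trans c2.symm)
  have c4 := SubgroupTools.card_sup_mul_card_inf (N := K) (H := L) (by
    rw [Subgroup.normalizer_eq_top]; exact le_top)
  have c5 : K ⊔ L = ⁅H, H⁆ := by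
    apply Subgroup.eq_of_le_of_card_ge (sup_le hKH hLH)
    have h1 : K < K ⊔ L := by
      refine lt_of_le_of_ne le_sup_left ?_
      intro h2
      have h3 : L ≤ K := by rw [h2]; exact le_sup_right
      exact hne (Subgroup.eq_of_le_of_card_ge h3 c3.le).symm
    obtain ⟨a, ha⟩ := IsPGroup.iff_card.mp (hG.to_subgroup K)
    obtain ⟨b, hb⟩ := IsPGroup.iff_card.mp (hG.to_subgroup (K ⊔ L))
    have h2 : Nat.card K < Nat.card ↥(K ⊔ L) := by
      rcases (Subgroup.card_le_of_le h1.le).lt_or_eq with h | h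
      · exact h
      · exact absurd (Subgroup.eq_of_le_of_card_ge h1.le h.ge) h1.ne
    rw [← c1, hb, ha, ← pow_succ]
    rw [ha, hb] at h2
    exact Nat.pow_le_pow_right hpp.pos ((Nat.pow_lt_pow_iff_right hpp.one_lt).1 h2)
  rw [c5] at c4
  have c6 : Nat.card ↥⁅H, H⁆ = p ^ 2 * Nat.card ↥(K ⊓ L : Subgroup G) := by
    rw [← c1, mul_assoc] at c4
    have h1 := Nat.eq_of_mul_eq_mul_left Nat.card_pos c4
    rw [← c2, ← h1]; ring
  have hN : (K ⊓ L).Normal := inferInstance
  have hNle : K ⊓ L ≤ ⁅H, H⁆ := inf_le_left.trans hKH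
  have hNH : K ⊓ L ≤ H := hNle.trans (Subgroup.commutator_le_left H H)
  have d1 := card_map_mk hNH
  have d2 := card_map_mk hNle
  have hn : (H.map (QuotientGroup.mk' (K ⊓ L))).Normal := hH.map _ (QuotientGroup.mk'_surjective _)
  have hpos : 0 < Nat.card ↥(K ⊓ L : Subgroup G) := Nat.card_pos
  rw [c6] at d2
  have d3 := Nat.eq_of_mul_eq_mul_right hpos d2
  rw [heq, c6, ← mul_assoc, ← pow_add] at d1
  have d4 := Nat.eq_of_mul_eq_mul_right hpos d1
  have d5 := card_ge' (hG.to_quotient (K ⊓ L)) (lcs_map_le (K ⊓ L) hm) (by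
    rw [← Subgroup.map_commutator, d3, sq]
    exact lt_mul_of_one_lt_left hpp.pos hpp.one_lt) (by
    rw [← d3]
    apply Subgroup.card_le_of_le
    refine le_inf ?_ (Subgroup.map_mono (Subgroup.commutator_le_left H H))
    rintro _ ⟨x, hx, rfl⟩
    rw [mem_center_iff]
    intro g
    obtain ⟨g, rfl⟩ := QuotientGroup.mk'_surjective (K ⊓ L) g
    rw [eq_comm, ← commutatorElement_eq_one_iff_mul_comm, ← map_commutatorElement, PGroupOdd.mk'_eq_one_iff]
    have h1 : ⁅x, g⁆ ∈ ⁅⁅H, H⁆, (⊤ : Subgroup G)⁆ := Subgroup.commutator_mem_commutator hx (mem_top g)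
    exact ⟨hKc h1, hLc h1⟩)
  rw [d4] at d5
  have := (Nat.pow_le_pow_iff_right hpp.one_lt).1 d5
  omega

/-- (C) if `|H : H'| = p ^ (m + 2)` then `H'' ≤ γ_{4m+5}`. -/
theorem second_derived_le (hG : IsPGroup p G) {H : Subgroup G} [hH : H.Normal] {m : ℕ}
    (hm : H ≤ (⊤ : Subgroup G).lowerCentralSeries m) (hne : ⁅H, H⁆ ≠ ⊥)
    (heq : Nat.card H = p ^ (m + 2) * Nat.card ↥⁅H, H⁆) :
    ⁅⁅H, H⁆, ⁅H, H⁆⁆ ≤ (⊤ : Subgroup G).lowerCentralSeries (4 * m + 4) := by
  have hpp := hp.out
  have e1 : ⁅H, H⁆ ≤ (⊤ : Subgroup G).lowerCentralSeries (2 * m + 1) := by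
    refine (Subgroup.commutator_mono hm hm).trans ((H70HallPetrescu.commutator_lcs m m).trans (le_of_eq ?_))
    congr 1; omega
  set H1 := ⁅H, H⁆ with hH1
  have hH1n : H1.Normal := by rw [hH1]; infer_instance
  have e2 : ⁅H1, (⊤ : Subgroup G)⁆ ≤ (⊤ : Subgroup G).lowerCentralSeries (2 * m + 2) :=
    Subgroup.commutator_mono e1 le_rfl
  have e3 : ⁅H1, (⊤ : Subgroup G)⁆ ≤ H1 := Subgroup.commutator_le_left _ _
  set N2 := (⊤ : Subgroup G).lowerCentralSeries (2 * m + 2) with hN2
  have hN2n : N2.Normal := by rw [hN2]; infer_instance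
  set D := H1 ⊓ N2 with hD
  have hDn : D.Normal := by rw [hD]; infer_instance
  have e4 : ⁅H1, (⊤ : Subgroup G)⁆ ≤ D := le_inf e3 e2
  obtain ⟨K, hK, hlt, hKc, hidx⟩ := Tate.exists_normal_index_p hG H1 hne
  obtain ⟨c, hc, hcK⟩ := SetLike.exists_of_lt hlt
  have hMn : (D ⊔ zpowers c).Normal := by
    apply PGroupOdd.normal_sup_zpowers hDn
    intro g
    apply e4
    rw [Subgroup.commutator_comm]
    exact Subgroup.commutator_mem_commutator (mem_top g) hc
  have hMle : D ⊔ zpowers c ≤ H1 := sup_le inf_le_left (by rwa [zpowers_le])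
  have hM : D ⊔ zpowers c = H1 := by
    by_contra hM
    obtain ⟨a, ha⟩ := IsPGroup.iff_card.mp (hG.to_subgroup (D ⊔ zpowers c))
    obtain ⟨b, hb⟩ := IsPGroup.iff_card.mp (hG.to_subgroup H1)
    have h2 : Nat.card ↥(D ⊔ zpowers c) < Nat.card ↥H1 := by
      rcases (Subgroup.card_le_of_le hMle).lt_or_eq with h | h
      · exact h
      · exact absurd (Subgroup.eq_of_le_of_card_ge hMle h.ge) hM
    rw [ha, hb] at h2
    have h3 := (Nat.pow_lt_pow_iff_right hpp.one_lt).1 h2
    obtain ⟨L, hL, hML, hLH, hLc⟩ := PGroupOdd.exists_normal_card hG hH1n hMn hMle (j := a) (k := b - 1)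
      ha (by omega) (by rw [hb]; exact Nat.pow_le_pow_right hpp.pos (by omega))
    have h4 : L.relIndex H1 = p := by
      have h5 := SubgroupTools.card_mul_relIndex_of_le hLH
      rw [hLc, hb] at h5
      have h6 : p ^ b = p ^ (b - 1) * p := by rw [← pow_succ]; congr 1; omega
      rw [h6] at h5
      exact Nat.eq_of_mul_eq_mul_left (pow_pos hpp.pos _) h5
    have h7 : K = L := unique_max hG hm heq hlt.le hLH hidx h4 hKc
      (e4.trans (le_sup_left.trans hML))
    apply hcK
    rw [h7]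
    exact hML (mem_sup_right (mem_zpowers c))
  set N4 := (⊤ : Subgroup G).lowerCentralSeries (4 * m + 4) with hN4
  have hN4n : N4.Normal := by rw [hN4]; infer_instance
  have hcomm : ∀ x y : G, ⁅x, y⁆ ∈ N4 → Commute (QuotientGroup.mk' N4 x) (QuotientGroup.mk' N4 y) := by
    intro x y h
    rw [← PGroupOdd.mk'_eq_one_iff, map_commutatorElement, commutatorElement_eq_one_iff_mul_comm] at h
    exact h
  have hDH : ∀ d ∈ D, ∀ y ∈ H1, Commute (QuotientGroup.mk' N4 d) (QuotientGroup.mk' N4 y) := by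
    intro d hd y hy
    apply hcomm
    have h1 := H70HallPetrescu.commutator_lcs (G := G) (2 * m + 2) (2 * m + 1)
      (Subgroup.commutator_mem_commutator hd.2 (e1 hy))
    have h2 : 2 * m + 2 + (2 * m + 1) + 1 = 4 * m + 4 := by omega
    rwa [h2] at h1
  have hcH : ∀ y ∈ H1, Commute (QuotientGroup.mk' N4 c) (QuotientGroup.mk' N4 y) := by
    intro y hy
    have h1 : H1 ≤ (centralizer {QuotientGroup.mk' N4 c}).comap (QuotientGroup.mk' N4) := by
      rw [← hM]
      refine sup_le ?_ ?_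
      · intro d hd
        rw [mem_comap, mem_centralizer_singleton_iff]
        exact hDH d hd c hc
      · rw [zpowers_le, mem_comap, mem_centralizer_singleton_iff]
    have h2 := h1 hy
    rw [mem_comap, mem_centralizer_singleton_iff] at h2
    exact h2.symm
  rw [commutator_le]
  intro a ha b hb
  rw [← PGroupOdd.mk'_eq_one_iff, map_commutatorElement, commutatorElement_eq_one_iff_mul_comm]
  have h1 : H1 ≤ (centralizer {QuotientGroup.mk' N4 b}).comap (QuotientGroup.mk' N4) := by
    nth_rewrite 1 [← hM]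
    refine sup_le ?_ ?_
    · intro d hd
      rw [mem_comap, mem_centralizer_singleton_iff]
      exact hDH d hd b hb
    · rw [zpowers_le, mem_comap, mem_centralizer_singleton_iff]
      exact hcH b hb
  have h2 := h1 ha
  rw [mem_comap, mem_centralizer_singleton_iff] at h2
  exact h2

end main

section count

variable {G : Type*} [Group G] [Finite G] {p : ℕ} [hp : Fact p.Prime]

omit [Finite G] in
theorem ds_le (i : ℕ) : derivedSeries G i ≤ (⊤ : Subgroup G).lowerCentralSeries (2 ^ i - 1) := by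
  induction i with
  | zero => exact le_top
  | succ i ih =>
    rw [derivedSeries_succ]
    refine (Subgroup.commutator_mono ih ih).trans ((H70HallPetrescu.commutator_lcs _ _).trans (le_of_eq ?_))
    congr 1
    have := Nat.one_le_two_pow (n := i)
    rw [pow_succ]; omega

/-- the state after `i` steps. -/
theorem state (hG : IsPGroup p G) {k : ℕ} (hk : derivedSeries G k ≠ ⊥) (i : ℕ) (hi : i ≤ k) :
    (p ^ (2 ^ i + 2 * i - 1) * Nat.card (derivedSeries G i) ≤ Nat.card G) ∨
    (p ^ (2 ^ i + 2 * i - 2) * Nat.card (derivedSeries G i) ≤ Nat.card G ∧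
      derivedSeries G (i + 1) ≤ (⊤ : Subgroup G).lowerCentralSeries (2 ^ (i + 1))) ∨
    (1 ≤ i ∧ p ^ (2 ^ i + 2 * i - 3) * Nat.card (derivedSeries G i) ≤ Nat.card G ∧
      derivedSeries G i ≤ (⊤ : Subgroup G).lowerCentralSeries (2 ^ i)) := by
  have hpp := hp.out
  induction i with
  | zero =>
    left
    simp
  | succ i ih =>
    have hi1 : i ≤ k := by omega
    have hpow : 1 ≤ 2 ^ i := Nat.one_le_two_pow
    have hne : ⁅derivedSeries G i, derivedSeries G i⁆ ≠ ⊥ := by
      rw [← derivedSeries_succ]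
      intro h
      apply hk
      rw [eq_bot_iff, ← h]
      exact derivedSeries_antitone G hi
    have hn : (derivedSeries G i).Normal := inferInstance
    have hA := card_quot_ge hG (ds_le (G := G) i) hne
    have e1 : 2 ^ i - 1 + 2 = 2 ^ i + 1 := by omega
    rw [e1, ← derivedSeries_succ] at hA
    have hs : 2 ^ (i + 1) = 2 * 2 ^ i := by rw [pow_succ, mul_comm]
    rcases ih hi1 with h | ⟨h, h'⟩ | ⟨h0, h, h'⟩
    · by_cases heq : Nat.card (derivedSeries G i) = p ^ (2 ^ i + 1) * Nat.card (derivedSeries G (i + 1))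
      · right; left
        constructor
        · rw [heq, ← mul_assoc, ← pow_add] at h
          refine le_trans (le_of_eq ?_) h
          congr 2
          rw [hs]; omega
        · have h2 := second_derived_le hG (ds_le (G := G) i) hne (by
            rw [e1, ← derivedSeries_succ]; exact heq)
          rw [← derivedSeries_succ, ← derivedSeries_succ] at h2
          refine h2.trans (le_of_eq ?_)
          congr 1
          rw [pow_succ, hs]; omega
      · left
        have h2 : p ^ (2 ^ i + 2) * Nat.card (derivedSeries G (i + 1)) ≤ Nat.card (derivedSeries G i) := by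
          obtain ⟨a, ha⟩ := IsPGroup.iff_card.mp (hG.to_subgroup (derivedSeries G i))
          obtain ⟨b, hb⟩ := IsPGroup.iff_card.mp (hG.to_subgroup (derivedSeries G (i + 1)))
          rw [ha, hb, ← pow_add] at hA heq ⊢
          have h3 := (Nat.pow_le_pow_iff_right hpp.one_lt).1 hA
          apply Nat.pow_le_pow_right hpp.pos
          have h4 : a ≠ 2 ^ i + 1 + b := fun h5 => heq (by rw [h5])
          omega
        refine le_trans ?_ (le_trans (Nat.mul_le_mul_left _ h2) h)
        rw [← mul_assoc, ← pow_add]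
        refine le_of_eq ?_
        congr 2
        rw [hs]; omega
    · right; right
      refine ⟨by omega, ?_, h'⟩
      refine le_trans ?_ (le_trans (Nat.mul_le_mul_left _ hA) h)
      rw [← mul_assoc, ← pow_add]
      refine Nat.mul_le_mul_right _ (Nat.pow_le_pow_right hpp.pos ?_)
      rw [hs]; omega
    · right; right
      refine ⟨by omega, ?_, ?_⟩
      · have hA' := card_quot_ge hG h' hne
        rw [← derivedSeries_succ] at hA'
        refine le_trans ?_ (le_trans (Nat.mul_le_mul_left _ hA') h)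
        rw [← mul_assoc, ← pow_add]
        refine Nat.mul_le_mul_right _ (Nat.pow_le_pow_right hpp.pos ?_)
        rw [hs]; omega
      · rw [derivedSeries_succ]
        refine (Subgroup.commutator_mono h' h').trans ((H70HallPetrescu.commutator_lcs _ _).trans ?_)
        apply Subgroup.lowerCentralSeries_antitone
        rw [hs]; omega

theorem main (n k : ℕ) (hcard : Nat.card G = p ^ n) (hk : derivedSeries G k ≠ ⊥) :
    2 ^ k + 2 * k ≤ n + 2 := by
  have hpp := hp.out
  have hG : IsPGroup p G := IsPGroup.of_card hcard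
  rcases Nat.eq_zero_or_pos k with h0 | h0
  · subst h0; simp
  have hpow : 2 ≤ 2 ^ k := by
    calc 2 = 2 ^ 1 := rfl
      _ ≤ 2 ^ k := Nat.pow_le_pow_right (by norm_num) h0
  have h1 : p ^ (2 ^ k + 2 * k - 3) * Nat.card (derivedSeries G k) ≤ Nat.card G := by
    rcases state hG hk k le_rfl with h | ⟨h, -⟩ | ⟨-, h, -⟩
    · exact (Nat.mul_le_mul_right _ (Nat.pow_le_pow_right hpp.pos (by omega))).trans h
    · exact (Nat.mul_le_mul_right _ (Nat.pow_le_pow_right hpp.pos (by omega))).trans h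
    · exact h
  obtain ⟨a, ha⟩ := IsPGroup.iff_card.mp (hG.to_subgroup (derivedSeries G k))
  have ha0 : a ≠ 0 := by
    rintro rfl
    apply hk
    rw [← Subgroup.card_eq_one, ha, pow_zero]
  rw [ha, hcard, ← pow_add] at h1
  have h2 := (Nat.pow_le_pow_iff_right hpp.one_lt).1 h1
  omega

end count

end Cfsg.Agent.Lib.DerLen79
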