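import Cfsg.Agent.Lib.DerR4
import Cfsg.Agent.Lib.BryLoc
import Cfsg.Agent.Lib.HHMain2

/-!
The local data give Heisenberg data (helper59).
-/

set_option autoImplicit false
set_option linter.unusedSectionVars false

namespace Cfsg.Agent.Lib.DerHD

open Module Subgroup Cfsg Cfsg.Agent.Lib.SympFix Cfsg.Agent.Lib.DerZn Cfsg.Agent.Lib.WtGroup
  Cfsg.Agent.Lib.Ward Cfsg.Agent.Lib.BryLoc
open scoped commutatorElement

universe u v w t

section Core

variable {X : Type u} [Group X] {k : Type v} [Field k] [hk2 : CharP k 2] {W : Type w}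
    [AddCommGroup W] [Module k W] {q : ℕ} {M : Type t} [AddCommGroup M] [Module (ZMod q) M]
    {H : X →* Module.End k W} {ρ : X →* Module.End (ZMod q) M} {O : M → Module.End k W}
    {e : M → M → k} {T : Subgroup X} {W' : Submodule k W} {M' : Submodule (ZMod q) M}

theorem core [Finite X] (h : HD H ρ O e) (z : X) : ∀ (r : ℕ) {T : Subgroup X} {W' : Submodule k W}
    {M' : Submodule (ZMod q) M}, St H ρ O e T W' M' (r + 2) z → False := by
  intro r
  induction r with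
  | zero => intro T W' M' S; exact core_two h S
  | succ r ih => intro T W' M' S; exact core_succ h ih S

theorem Bmain [Finite X] (h : HD H ρ O e) (r : ℕ) (C : Cf H ρ O e T W' M')
    (hZ : W' ≤ Zn H (r + 2) T) : ∀ τ ∈ dser (r + 2) T, ∀ m ∈ M', ρ τ m = m := by
  by_contra hcon
  have hnD : ¬ dser (r + 2) T ≤ Ck ρ T M' := by
    intro h1
    exact hcon fun τ hτ => (h1 hτ).2
  have hNn : ∀ n : ℕ, ∀ t ∈ T, ∀ x ∈ dser n T, t * x * t⁻¹ ∈ dser n T := by
    intro n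
    induction n with
    | zero => intro t ht x hx; exact mul_mem (mul_mem ht hx) (inv_mem ht)
    | succ n ih =>
      intro t ht
      have h1 : dser (n + 1) T ≤ (dser (n + 1) T).comap (MulAut.conj t).toMonoidHom := by
        rw [dser_succ', commutator_le]
        intro a ha b hb
        rw [mem_comap, map_commutatorElement]
        exact commutator_mem_commutator (ih t ht a ha) (ih t ht b hb)
      exact fun x hx => h1 hx
  obtain ⟨z, hzD, hzC, hz2, hzc⟩ := DerGrp.exists_z C.p2 (fun t ht c hc => C.Ck_conj ht hc)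
    (dser_le (r + 2) T) (hNn (r + 2)) hnD
  have hzT : z ∈ T := dser_le _ _ hzD
  have hzz : ∀ m ∈ M', ρ z (ρ z m) = m := fun m hm => by rw [← ρmul]; exact hz2.2 m hm
  have hcomm : ∀ t ∈ T, ∀ m ∈ M', ρ z (ρ t m) = ρ t (ρ z m) := fun t ht m hm =>
    (C.one_comm ht hzT (hzc t ht).2 m hm).symm
  obtain ⟨m, hm, hne⟩ : ∃ m ∈ M', ρ z m ≠ m := by
    by_contra h1
    push Not at h1
    exact hzC ⟨hzT, h1⟩
  refine core h z r (T := T) (W' := W') (M' := neg ρ z M')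
    ⟨C.restrict_neg h hzT hzz le_rfl hcomm, hZ, hzD, fun m hm => hm.2, ?_⟩
  refine (Submodule.ne_bot_iff _).2 ⟨m - ρ z m, ⟨sub_mem hm (C.tM z hzT m hm), by
    rw [map_sub, hzz m hm, neg_sub]⟩, fun h1 => hne (sub_eq_zero.1 h1).symm⟩

end Core

/-- restriction of a representation to an invariant submodule -/
def resHom {G : Type u} [Group G] {k : Type v} [Field k] {W : Type w} [AddCommGroup W] [Module k W]
    (H : G →* Module.End k W) (V : Submodule k W) (h : ∀ g, ∀ v ∈ V, H g v ∈ V) :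
    G →* Module.End k V where
  toFun g := (H g).restrict (h g)
  map_one' := by
    refine LinearMap.ext fun v => Subtype.ext ?_
    rw [LinearMap.coe_restrict_apply, map_one]
    rfl
  map_mul' a b := by
    refine LinearMap.ext fun v => Subtype.ext ?_
    rw [LinearMap.coe_restrict_apply, map_mul]
    rfl

theorem resHom_apply {G : Type u} [Group G] {k : Type v} [Field k] {W : Type w} [AddCommGroup W]
    [Module k W] (H : G →* Module.End k W) (V : Submodule k W) (h : ∀ g, ∀ v ∈ V, H g v ∈ V)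
    (g : G) (v : V) : ((resHom H V h g v : V) : W) = H g v := rfl

theorem resHom_pow {G : Type u} [Group G] {k : Type v} [Field k] {W : Type w} [AddCommGroup W]
    [Module k W] (H : G →* Module.End k W) (V : Submodule k W) (h : ∀ g, ∀ v ∈ V, H g v ∈ V)
    (g : G) (n : ℕ) (v : V) :
    ((((resHom H V h g - 1) ^ n : Module.End k V) v : V) : W) =
      ((H g - 1) ^ n : Module.End k W) v := by
  induction n with
  | zero => rfl
  | succ n ih =>
    rw [pow_succ', pow_succ', Module.End.mul_apply, Module.End.mul_apply, ← ih]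
    rfl

/-- the stabilizer of a submodule -/
def stabSub {G : Type u} [Group G] {k : Type v} [Field k] {W : Type w} [AddCommGroup W] [Module k W]
    (H : G →* Module.End k W) (V : Submodule k W) : Subgroup G where
  carrier := {g | (∀ v ∈ V, H g v ∈ V) ∧ ∀ v ∈ V, H g⁻¹ v ∈ V}
  one_mem' := by
    refine ⟨fun v hv => ?_, fun v hv => ?_⟩
    · rw [map_one]; exact hv
    · rw [inv_one, map_one]; exact hv
  mul_mem' := by
    rintro a b ⟨ha, ha'⟩ ⟨hb, hb'⟩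
    refine ⟨fun v hv => ?_, fun v hv => ?_⟩
    · rw [map_mul]; exact ha _ (hb v hv)
    · rw [mul_inv_rev, map_mul]; exact hb' _ (ha' v hv)
  inv_mem' := by
    rintro a ⟨ha, ha'⟩
    exact ⟨ha', by rw [inv_inv]; exact ha⟩

theorem mem_stabSub {G : Type u} [Group G] [Finite G] {k : Type v} [Field k] {W : Type w}
    [AddCommGroup W] [Module k W] (H : G →* Module.End k W) (V : Submodule k W) {g : G}
    (h : ∀ v ∈ V, H g v ∈ V) : g ∈ stabSub H V := by
  refine ⟨h, ?_⟩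
  have h1 : ∀ n : ℕ, ∀ v ∈ V, H (g ^ n) v ∈ V := by
    intro n
    induction n with
    | zero => intro v hv; rw [pow_zero, map_one]; exact hv
    | succ n ih => intro v hv; rw [pow_succ, map_mul]; exact ih _ (h v hv)
  have h2 : g⁻¹ = g ^ (Nat.card G - 1) := by
    rw [inv_eq_iff_mul_eq_one, ← pow_succ']
    have : Nat.card G - 1 + 1 = Nat.card G := Nat.sub_add_cancel Nat.card_pos
    rw [this, pow_card_eq_one']
  rw [h2]
  exact h1 _

section Loc

variable {Γ : Type u} [Group Γ] [Finite Γ] {k : Type v} {W : Type w}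
    [Field k] [IsAlgClosed k] [CharP k 2] [AddCommGroup W] [Module k W] [FiniteDimensional k W]

variable {H : Γ →* Module.End k W} {q : ℕ} [hqf : Fact q.Prime] {Q R X : Subgroup Γ}
  {μ : Γ → k} {v₀ : W} {M : Type u} [AddCommGroup M] [Module (ZMod q) M]
  {ρ : Representation (ZMod q) X M} {π : Q → M} {e : M → M → k}

omit [Finite Γ] [IsAlgClosed k] [CharP k 2] [FiniteDimensional k W] in
theorem VX (L : Loc H q Q R X μ v₀ ρ π e) : ∀ (x : X), ∀ w ∈ wtSub H ⁅Q, Q⁆ μ,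
    (H.comp X.subtype) x w ∈ wtSub H ⁅Q, Q⁆ μ := by
  intro g w hw z hz
  have h1 := isWt_tw H hw ((L.hX _).1 g.2).2.1 z hz
  change H z (H (g : Γ) w) = _
  rw [h1, tw_apply, ((L.hX _).1 g.2).2.2 z hz]
  rfl

omit [Finite Γ] [IsAlgClosed k] [CharP k 2] [FiniteDimensional k W] in
theorem VQ (L : Loc H q Q R X μ v₀ ρ π e) : ∀ (x : Q), ∀ w ∈ wtSub H ⁅Q, Q⁆ μ,
    H (x : Γ) w ∈ wtSub H ⁅Q, Q⁆ μ := by
  intro x w hw z hz
  rw [← Module.End.mul_apply, ← map_mul, ← (L.hDc z hz x x.2).eq, map_mul, Module.End.mul_apply,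
    hw z hz, map_smul]

/-- the lift -/
noncomputable def lft (L : Loc H q Q R X μ v₀ ρ π e) (m : M) : Q := Function.surjInv L.hπ m

omit [Finite Γ] [IsAlgClosed k] [CharP k 2] [FiniteDimensional k W] in
theorem π_lft (L : Loc H q Q R X μ v₀ ρ π e) (m : M) : π (lft L m) = m :=
  Function.surjInv_eq L.hπ m

/-- the operators -/
noncomputable def Op (L : Loc H q Q R X μ v₀ ρ π e) (m : M) :
    Module.End k (wtSub H ⁅Q, Q⁆ μ) := (H (lft L m : Γ)).restrict (VQ L (lft L m))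

omit [Finite Γ] [IsAlgClosed k] [CharP k 2] [FiniteDimensional k W] in
theorem Op_apply (L : Loc H q Q R X μ v₀ ρ π e) (m : M) (w : wtSub H ⁅Q, Q⁆ μ) :
    ((Op L m w : wtSub H ⁅Q, Q⁆ μ) : W) = H (lft L m : Γ) w := rfl

omit [Finite Γ] [IsAlgClosed k] [CharP k 2] [FiniteDimensional k W] in
theorem π_inv (L : Loc H q Q R X μ v₀ ρ π e) (x : Q) : π x⁻¹ = -π x := by
  have hπ1 : π 1 = 0 := (L.hker 1).2 (one_mem _)
  have h1 := L.hadd x x⁻¹
  rw [mul_inv_cancel, hπ1] at h1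
  exact (neg_eq_of_add_eq_zero_right h1.symm).symm

omit [Finite Γ] [IsAlgClosed k] [CharP k 2] [FiniteDimensional k W] in
theorem scal_of_π (L : Loc H q Q R X μ v₀ ρ π e) {x y : Q} (h : π x = π y) :
    ∃ c : k, ∀ w ∈ wtSub H ⁅Q, Q⁆ μ, H (x : Γ) w = c • H (y : Γ) w := by
  have h1 : π (y⁻¹ * x) = 0 := by rw [L.hadd, π_inv L, h, neg_add_cancel]
  obtain ⟨c, -, hc⟩ := L.hscal _ ((L.hker _).1 h1)
  refine ⟨μ c, fun w hw => ?_⟩
  have h2 : (x : Γ) = (y : Γ) * ((y⁻¹ * x : Q) : Γ) := by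
    rw [Subgroup.coe_mul, Subgroup.coe_inv, mul_inv_cancel_left]
  rw [h2, map_mul, Module.End.mul_apply, hc w hw, map_smul]

/-- the restriction of the representation -/
noncomputable def HX (L : Loc H q Q R X μ v₀ ρ π e) : X →* Module.End k (wtSub H ⁅Q, Q⁆ μ) :=
  resHom (H.comp X.subtype) (wtSub H ⁅Q, Q⁆ μ) (VX L)

omit [Finite Γ] [IsAlgClosed k] [CharP k 2] [FiniteDimensional k W] in
theorem HX_apply (L : Loc H q Q R X μ v₀ ρ π e) (x : X) (w : wtSub H ⁅Q, Q⁆ μ) :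
    ((HX L x w : wtSub H ⁅Q, Q⁆ μ) : W) = H (x : Γ) w := rfl

theorem hh_of_loc (L : Loc H q Q R X μ v₀ ρ π e) (W' : Submodule k (wtSub H ⁅Q, Q⁆ μ))
    (M' : Submodule (ZMod q) M) (hio : ∀ m ∈ M', ∀ w ∈ W', Op L m w ∈ W') (x : X)
    (hxW : ∀ w ∈ W', HX L x w ∈ W') (hxM : ∀ m ∈ M', ρ x m ∈ M') (a : ℕ) (ha : 3 ≤ a)
    (hxa : ∀ w ∈ W', HX L (x ^ 2 ^ a) w = w)
    (hne : ∃ m ∈ M', ∃ w ∈ W', HX L (x ^ 2 ^ (a - 1)) (Op L m w) ≠
      Op L m (HX L (x ^ 2 ^ (a - 1)) w)) :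
    ¬ ∀ w ∈ W', ((HX L x - 1) ^ (2 ^ (a - 1) + 1) : Module.End k _) w = 0 := by
  intro hnil
  have h2f : Fact (Nat.Prime 2) := ⟨Nat.prime_two⟩
  have hq := hqf.out
  set W₁ : Submodule k W := W'.map (wtSub H ⁅Q, Q⁆ μ).subtype with hW₁
  have hmW : ∀ w : wtSub H ⁅Q, Q⁆ μ, w ∈ W' → (w : W) ∈ W₁ := fun w hw => ⟨w, hw, rfl⟩
  set G₁ : Subgroup Γ := stabSub H W₁ with hG₁
  have hπ1 : π 1 = 0 := (L.hker 1).2 (one_mem _)
  let Q₀ : Subgroup Γ :=
    { carrier := {x | ∃ hx : x ∈ Q, π ⟨x, hx⟩ ∈ M'}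
      one_mem' := ⟨one_mem _, by
        have : (⟨1, one_mem _⟩ : Q) = 1 := rfl
        rw [this, hπ1]; exact zero_mem _⟩
      mul_mem' := by
        rintro a b ⟨ha, ha'⟩ ⟨hb, hb'⟩
        refine ⟨mul_mem ha hb, ?_⟩
        have : (⟨a * b, mul_mem ha hb⟩ : Q) = ⟨a, ha⟩ * ⟨b, hb⟩ := rfl
        rw [this, L.hadd]
        exact add_mem ha' hb'
      inv_mem' := by
        rintro a ⟨ha, ha'⟩
        refine ⟨inv_mem ha, ?_⟩
        have : (⟨a⁻¹, inv_mem ha⟩ : Q) = (⟨a, ha⟩ : Q)⁻¹ := rfl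
        rw [this, π_inv L]
        exact neg_mem ha' }
  have hQ₀Q : Q₀ ≤ Q := fun g hg => hg.1
  have hQ₀G : Q₀ ≤ G₁ := by
    rintro g ⟨hg, hgM⟩
    refine mem_stabSub H W₁ ?_
    rintro _ ⟨w, hw, rfl⟩
    obtain ⟨c, hc⟩ := scal_of_π L (x := ⟨g, hg⟩) (y := lft L (π ⟨g, hg⟩)) (by rw [π_lft L])
    change H g (w : W) ∈ W₁
    rw [show H g (w : W) = _ from hc w w.2]
    refine Submodule.smul_mem _ _ ?_
    exact hmW (Op L (π ⟨g, hg⟩) w) (hio _ hgM w hw)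
  have hxG : (x : Γ) ∈ G₁ := by
    refine mem_stabSub H W₁ ?_
    rintro _ ⟨w, hw, rfl⟩
    exact hmW (HX L x w) (hxW w hw)
  have hσp : ∀ (g : G₁), ∀ w ∈ W₁, (H.comp G₁.subtype) g w ∈ W₁ := fun g w hw => g.2.1 w hw
  set σ : G₁ →* Module.End k W₁ := resHom (H.comp G₁.subtype) W₁ hσp with hσ
  have hσa : ∀ (g : G₁) (w : W₁), ((σ g w : W₁) : W) = H (g : Γ) w := fun g w => rfl
  set x₁ : G₁ := ⟨x, hxG⟩ with hx₁
  have hxQ : x₁ ∈ normalizer ((Q₀.subgroupOf G₁ : Subgroup G₁) : Set G₁) := by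
    refine mem_normalizer_fintype ?_
    intro g hg
    have hg' : (g : Γ) ∈ Q₀ := hg
    obtain ⟨h1, h2⟩ := hg'
    change (x : Γ) * g * (x : Γ)⁻¹ ∈ Q₀
    have h3 : (x : Γ) * g * (x : Γ)⁻¹ ∈ Q :=
      (mem_normalizer_iff.1 ((L.hX _).1 x.2).1 (g : Γ)).1 h1
    refine ⟨h3, ?_⟩
    rw [← L.hρ x ⟨g, h1⟩ ⟨_, h3⟩ rfl]
    exact hxM _ h2
  have hpow : ∀ i : ℕ, σ x₁ ^ i = σ (x₁ ^ i) := fun i => (map_pow _ _ _).symm
  have hxpow : ∀ (i : ℕ) (w : wtSub H ⁅Q, Q⁆ μ) (hw : (w : W) ∈ W₁),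
      ((σ (x₁ ^ i) ⟨w, hw⟩ : W₁) : W) = ((HX L (x ^ i) w : wtSub H ⁅Q, Q⁆ μ) : W) := by
    intro i w hw
    rfl
  have hwex : ∀ w : W₁, ∃ w' : wtSub H ⁅Q, Q⁆ μ, w' ∈ W' ∧ (w' : W) = w := by
    rintro ⟨_, w', hw', rfl⟩
    exact ⟨w', hw', rfl⟩
  have hnil' : (σ x₁ - 1) ^ (2 ^ (a - 1) + 1) = 0 := by
    ext w
    obtain ⟨w', hw', hww'⟩ := hwex w
    have h1 := hnil w' hw'
    have h2 : ∀ n : ℕ, ((((σ x₁ - 1) ^ n : Module.End k W₁) w : W₁) : W) =
        ((((HX L x - 1) ^ n : Module.End k (wtSub H ⁅Q, Q⁆ μ)) w' : wtSub H ⁅Q, Q⁆ μ) : W) := by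
      intro n
      have e1 := resHom_pow (H.comp G₁.subtype) W₁ hσp x₁ n w
      have e2 := resHom_pow (H.comp X.subtype) (wtSub H ⁅Q, Q⁆ μ) (VX L) x n w'
      refine e1.trans (Eq.trans ?_ e2.symm)
      rw [hww']
      rfl
    rw [h2, h1]
    rfl
  have hcon := HHMain.main (K := k) (p := 2) (q := q) (Ne.symm L.hq2) (n := a) (by omega) σ
    (Q₀.subgroupOf G₁) ((L.hQ.to_le hQ₀Q).comap_subtype) x₁ hxQ (by
      rw [hpow]
      ext w
      obtain ⟨w', hw', hww'⟩ := hwex w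
      have h1 := hxa w' hw'
      have h2 : w = ⟨w', hww' ▸ w.2⟩ := Subtype.ext hww'.symm
      rw [h2, hxpow, h1]
      rfl) (by
      obtain ⟨m, hm, w, hw, hmw⟩ := hne
      have hlm : (lft L m : Γ) ∈ Q₀ := ⟨(lft L m).2, by
        have : (⟨(lft L m : Γ), (lft L m).2⟩ : Q) = lft L m := rfl
        rw [this, π_lft L]; exact hm⟩
      refine ⟨⟨lft L m, hQ₀G hlm⟩, hlm, ?_⟩
      intro h1
      apply hmw
      have h2 := LinearMap.congr_fun h1 ⟨w, hmW w hw⟩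
      rw [map_mul, map_mul] at h2
      have h3 := congrArg (Subtype.val : W₁ → W) h2
      apply Subtype.ext
      exact h3)
  have hz : ∀ n, 2 ^ (a - 1) + 1 ≤ n → (σ x₁ - 1) ^ n = 0 := by
    intro n hn
    obtain ⟨d, rfl⟩ := Nat.exists_eq_add_of_le hn
    rw [pow_add, hnil', zero_mul]
  have ha2 : (2 : ℕ) ^ a = 2 * 2 ^ (a - 1) := by rw [← pow_succ']; congr 1; omega
  have ha1 : (2 : ℕ) ^ (a - 1) = 2 * 2 ^ (a - 2) := by rw [← pow_succ']; congr 1; omega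
  have ha3 : 2 ≤ (2 : ℕ) ^ (a - 2) := by
    calc 2 = 2 ^ 1 := rfl
      _ ≤ 2 ^ (a - 2) := Nat.pow_le_pow_right (by norm_num) (by omega)
  rcases hcon with h | ⟨n₀, m, h1, h2, h3, h4, -, -, h5⟩
  · exact h (hz _ (by omega))
  · apply h5
    apply hz
    have hq3 : 3 ≤ q := by
      have := hq.two_le
      have := L.hq2
      omega
    have h6 : 3 ≤ q ^ m := by
      calc 3 ≤ q := hq3
        _ = q ^ 1 := (pow_one q).symm
        _ ≤ q ^ m := Nat.pow_le_pow_right (by omega) h3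
    have h7 : 2 ≤ n₀ := by
      by_contra h8
      have h9 : n₀ = 1 := by omega
      rw [h9] at h4
      omega
    have h8 : (2 : ℕ) ^ (a - n₀) ≤ 2 ^ (a - 2) := Nat.pow_le_pow_right (by norm_num) (by omega)
    have h9 : (2 : ℕ) ^ (a - n₀) * (2 ^ n₀ - 1) = 2 ^ a - 2 ^ (a - n₀) := by
      rw [Nat.mul_sub, mul_one, ← pow_add]
      congr 2
      omega
    rw [h9]
    omega

theorem hd_of_loc (L : Loc H q Q R X μ v₀ ρ π e) : HD (HX L) (ρ : X →* _) (Op L) e where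
  inj := by
    intro m w h
    by_contra hw
    have h1 : H (lft L m : Γ) (w : W) = 0 := congrArg (Subtype.val : wtSub H ⁅Q, Q⁆ μ → W) h
    have h2 : (w : W) ≠ 0 := fun h3 => hw (Subtype.ext h3)
    exact ne_zero_of_H h2 (H := H) _ h1
  comm := by
    intro m n w
    apply Subtype.ext
    change H (lft L m : Γ) (H (lft L n : Γ) w) = e m n • H (lft L n : Γ) (H (lft L m : Γ) w)
    have h1 : (lft L m : Γ) * (lft L n : Γ) =
        ⁅(lft L m : Γ), (lft L n : Γ)⁆ * ((lft L n : Γ) * (lft L m : Γ)) := by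
      rw [commutatorElement_def]; group
    have h2 : H ((lft L n : Γ) * (lft L m : Γ)) (w : W) ∈ wtSub H ⁅Q, Q⁆ μ :=
      VQ L (lft L n * lft L m) w w.2
    have h3 := L.heμ (lft L m) (lft L n)
    rw [π_lft L, π_lft L] at h3
    rw [← Module.End.mul_apply, ← map_mul, h1, map_mul, Module.End.mul_apply,
      h2 _ (commutator_mem_commutator (lft L m).2 (lft L n).2), ← h3, map_mul,
      Module.End.mul_apply]
  act := by
    intro x m
    have h1 : (x : Γ) * (lft L m : Γ) * (x : Γ)⁻¹ ∈ Q :=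
      (mem_normalizer_iff.1 ((L.hX _).1 x.2).1 (lft L m : Γ)).1 (lft L m).2
    have h2 := L.hρ x (lft L m) ⟨_, h1⟩ rfl
    rw [π_lft L] at h2
    obtain ⟨c, hc⟩ := scal_of_π L (x := ⟨_, h1⟩) (y := lft L (ρ x m)) (by rw [π_lft L, h2])
    refine ⟨c, fun w => Subtype.ext ?_⟩
    have h3 := hc _ (HX L x w).2
    change H (x : Γ) (H (lft L m : Γ) w) = c • H (lft L (ρ x m) : Γ) (H (x : Γ) w)
    rw [HX_apply] at h3
    rw [← h3, ← Module.End.mul_apply, ← Module.End.mul_apply, ← map_mul, ← map_mul]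
    congr 2
    group
  pair := L.he
  inv := L.hinv
  hh := fun W' M' hio x _ hxW hxM a ha hxa hne => hh_of_loc L W' M' hio x hxW hxM a ha hxa hne

omit [Finite Γ] [IsAlgClosed k] [CharP k 2] [FiniteDimensional k W] in
theorem cf_of_loc (L : Loc H q Q R X μ v₀ ρ π e) {T : Subgroup X} (hT : IsPGroup 2 T) :
    Cf (HX L) (ρ : X →* _) (Op L) e T ⊤ ⊤ where
  p2 := hT
  ne := by
    intro h
    have h1 : (⟨v₀, L.hμ⟩ : wtSub H ⁅Q, Q⁆ μ) ∈ (⊤ : Submodule k (wtSub H ⁅Q, Q⁆ μ)) := trivial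
    rw [h, Submodule.mem_bot] at h1
    exact L.hv₀ (congrArg Subtype.val h1)
  tW := fun _ _ _ _ => trivial
  tM := fun _ _ _ _ => trivial
  io := fun _ _ _ _ => trivial
  nd := fun m _ h => L.hnd m fun n => h n trivial

omit [Finite Γ] [IsAlgClosed k] [CharP k 2] [FiniteDimensional k W] in
theorem Zn_resHom {G : Type*} [Group G] (H' : G →* Module.End k W) (V : Submodule k W)
    (h : ∀ g, ∀ v ∈ V, H' g v ∈ V) : ∀ (n : ℕ) (S : Subgroup G) (v : V),
    v ∈ Zn (resHom H' V h) n S ↔ (v : W) ∈ Zn H' n S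
  | 0, S, v => by
    rw [mem_Zn_zero, mem_Zn_zero]
    refine forall₂_congr fun x _ => ?_
    rw [← resHom_apply H' V h, Subtype.val_inj]
  | n + 1, S, v => by
    rw [mem_Zn_succ, mem_Zn_succ]
    refine forall₂_congr fun x _ => ?_
    rw [Zn_resHom H' V h n]
    rfl

omit [Finite Γ] [IsAlgClosed k] [CharP k 2] [FiniteDimensional k W] in
theorem Zn_HX (L : Loc H q Q R X μ v₀ ρ π e) (n : ℕ) (T : Subgroup X)
    (h : ∀ v ∈ wtSub H ⁅Q, Q⁆ μ, v ∈ Zn H n (T.map X.subtype)) : ⊤ ≤ Zn (HX L) n T := by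
  intro v _
  rw [HX, Zn_resHom, Zn_comap]
  exact h v v.2

end Loc

end Cfsg.Agent.Lib.DerHD
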