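import Cfsg.Agent.Lib.DerFin
import Cfsg.Agent.Lib.BryTop
import Cfsg.Agent.Lib.BryMain

/-!
Derived length and `2`-length: the induction (helper59).
-/

set_option autoImplicit false

namespace Cfsg.Agent.Lib.DerMain

open Module Subgroup Cfsg Cfsg.Agent.Lib.CoprimeAction Cfsg.Agent.Lib.CoprimeAction2
  Cfsg.Agent.Lib.SubgroupTools Cfsg.Agent.Lib.BrySec Cfsg.Agent.Lib.PLength Cfsg.Agent.Lib.BryMain
  Cfsg.Agent.Lib.DerZn
open scoped commutatorElement

universe u v w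

/-- the module `C / Z₁`. -/
theorem exists_rep_der {G : Type u} [Group G] [Finite G] {P N C Z₁ L₁ : Subgroup G} (hCP : C ≤ P)
    (hPN : P ≤ N) (hNC : N ≤ normalizer (C : Set G))
    (hNZ : N ≤ normalizer (Z₁ : Set G)) (hLN : L₁ ≤ N) (hCL : ¬ ⁅C, L₁⁆ ≤ Z₁)
    (hCPZ : ⁅C, P⁆ ≤ Z₁) (hsq : ∀ c ∈ C, c * c ∈ Z₁)
    (hmax : ∀ C₀ ≤ C, N ≤ normalizer (C₀ : Set G) → C₀ ≠ C → C₀ ≤ Z₁) :
    ∃ (M : Type u) (_ : AddCommGroup M) (_ : Module (ZMod 2) M) (_ : Finite M)
      (ρ : Representation (ZMod 2) N M), Nontrivial M ∧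
      (∀ V : Submodule (ZMod 2) M, (∀ (g : N), ∀ m ∈ V, ρ g m ∈ V) → V = ⊥ ∨ V = ⊤) ∧
      (∀ g : N, ρ g = 1 ↔ ∀ c ∈ C, (g : G) * c * (g : G)⁻¹ * c⁻¹ ∈ Z₁) ∧
      (∀ (n : ℕ) (S : Subgroup N), (∀ g : N, (g : G) ∈ C → g ∈ S) →
        (∀ x ∈ dser n S, (x : G) ∈ C → ∀ t ∈ dser n S, ⁅(x : G), (t : G)⁆ ∈ Z₁) →
        ∀ m, m ∈ Zn (ρ : N →* Module.End (ZMod 2) M) n S) := by
  have hCN : C ≤ N := hCP.trans hPN
  obtain ⟨M, i1, i2, i3, ρ, π, hπs, hπm, hπk, hπe⟩ := SecRep59.exists_section (q := 2) C Z₁ N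
    (fun x hx y hy => hCPZ (commutator_mem_commutator hx (hCP hy)))
    (fun x hx => by rw [pow_two]; exact hsq x hx) hNC hNZ (hCN.trans hNZ)
  have hπ1 : π 1 = 0 := (hπk 1).2 (one_mem _)
  have hπi : ∀ x : C, π x⁻¹ = - π x := by
    intro x
    rw [eq_neg_iff_add_eq_zero, ← hπm, inv_mul_cancel, hπ1]
  have hconj : ∀ (g : N) (c : G), c ∈ C → (g : G) * c * (g : G)⁻¹ ∈ C := fun g c hc =>
    (mem_normalizer_iff.1 (hNC g.2) c).1 hc
  have hone : ∀ g : N, ρ g = 1 ↔ ∀ c ∈ C, (g : G) * c * (g : G)⁻¹ * c⁻¹ ∈ Z₁ := by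
    intro g
    constructor
    · intro h c hc
      have h1 := hπe g ⟨c, hc⟩ ⟨_, hconj g c hc⟩ rfl
      rw [h, Module.End.one_apply] at h1
      have h2 := (hπk (⟨_, hconj g c hc⟩ * ⟨c, hc⟩⁻¹)).1 (by rw [hπm, hπi, ← h1, add_neg_cancel])
      exact h2
    · intro h
      refine LinearMap.ext fun m => ?_
      obtain ⟨⟨c, hc⟩, rfl⟩ := hπs m
      have h1 := hπe g ⟨c, hc⟩ ⟨_, hconj g c hc⟩ rfl
      rw [h1, Module.End.one_apply]
      have h2 := (hπk (⟨_, hconj g c hc⟩ * ⟨c, hc⟩⁻¹)).2 (h c hc)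
      rw [hπm, hπi] at h2
      exact add_neg_eq_zero.1 h2
  refine ⟨M, i1, i2, i3, ρ, ?_, ?_, hone, ?_⟩
  · by_contra hcon
    rw [not_nontrivial_iff_subsingleton] at hcon
    apply hCL
    rw [commutator_le]
    intro c hc t ht
    have h1 := (hone ⟨t, hLN ht⟩).1 (Subsingleton.elim _ _) c hc
    have h2 := inv_mem h1
    have e : ⁅c, t⁆ = (t * c * t⁻¹ * c⁻¹)⁻¹ := by rw [commutatorElement_def]; group
    rw [e]; exact h2
  · intro V hV
    let C₀ : Subgroup G :=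
      { carrier := {c | ∃ hc : c ∈ C, π ⟨c, hc⟩ ∈ V}
        one_mem' := ⟨one_mem _, by
          have : (⟨1, one_mem _⟩ : C) = 1 := rfl
          rw [this, hπ1]; exact zero_mem _⟩
        mul_mem' := by
          rintro a b ⟨ha, ha1⟩ ⟨hb, hb1⟩
          refine ⟨mul_mem ha hb, ?_⟩
          have : (⟨a * b, mul_mem ha hb⟩ : C) = ⟨a, ha⟩ * ⟨b, hb⟩ := rfl
          rw [this, hπm]; exact add_mem ha1 hb1
        inv_mem' := by
          rintro a ⟨ha, ha1⟩
          refine ⟨inv_mem ha, ?_⟩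
          have : (⟨a⁻¹, inv_mem ha⟩ : C) = ⟨a, ha⟩⁻¹ := rfl
          rw [this, hπi]; exact neg_mem ha1 }
    have h0 : C₀ ≤ C := fun c hc => hc.1
    have h1 : N ≤ normalizer (C₀ : Set G) := by
      refine nle_of_conj fun n hn c hc => ?_
      obtain ⟨hc, hcV⟩ := hc
      refine ⟨hconj ⟨n, hn⟩ c hc, ?_⟩
      rw [← hπe ⟨n, hn⟩ ⟨c, hc⟩ ⟨_, hconj ⟨n, hn⟩ c hc⟩ rfl]
      exact hV _ _ hcV
    by_cases h2 : C₀ = C
    · right
      rw [eq_top_iff]
      intro m _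
      obtain ⟨⟨c, hc⟩, rfl⟩ := hπs m
      have h3 : c ∈ C₀ := by rw [h2]; exact hc
      exact h3.2
    · left
      rw [eq_bot_iff]
      intro m hm
      obtain ⟨⟨c, hc⟩, rfl⟩ := hπs m
      have h3 : c ∈ C₀ := ⟨hc, hm⟩
      rw [Submodule.mem_bot, hπk]
      exact hmax C₀ h0 h1 h2 h3
  · intro n S hCS hS
    have key : ∀ m i, i + m = n → ∀ (c : N) (hc : (c : G) ∈ C), c ∈ dser i S →
        π ⟨c, hc⟩ ∈ Zn (ρ : N →* Module.End (ZMod 2) M) m (dser i S) := by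
      have hstep : ∀ (c : N) (hc : (c : G) ∈ C) (x : N), ∃ hd : ((⁅x, c⁆ : N) : G) ∈ C,
          ρ x (π ⟨c, hc⟩) - π ⟨c, hc⟩ = π ⟨(⁅x, c⁆ : N), hd⟩ := by
        intro c hc x
        have hd : ((⁅x, c⁆ : N) : G) ∈ C := mul_mem (hconj x c hc) (inv_mem hc)
        refine ⟨hd, ?_⟩
        have e : (⟨((⁅x, c⁆ : N) : G), hd⟩ : C) = ⟨_, hconj x c hc⟩ * ⟨c, hc⟩⁻¹ := rfl
        rw [e, hπm, hπi, hπe x ⟨c, hc⟩ ⟨_, hconj x c hc⟩ rfl, sub_eq_add_neg]
      intro m
      induction m with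
      | zero =>
        intro i hi c hc hcS
        rw [mem_Zn_zero]
        intro x hx
        obtain ⟨hd, h1⟩ := hstep c hc x
        rw [← sub_eq_zero]
        refine h1.trans ?_
        rw [hπk]
        have h2 := inv_mem (hS c (by rwa [← hi, Nat.add_zero]) hc x (by rwa [← hi, Nat.add_zero]))
        rw [commutatorElement_inv] at h2
        exact h2
      | succ m ih =>
        intro i hi c hc hcS
        rw [mem_Zn_succ]
        intro x hx
        obtain ⟨hd, h1⟩ := hstep c hc x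
        rw [← dser_succ']
        have h2 := ih (i + 1) (by omega) ⁅x, c⁆ hd (by
          rw [dser_succ']; exact commutator_mem_commutator hx hcS)
        rw [← h1] at h2
        exact h2
    intro m
    obtain ⟨⟨c, hc⟩, rfl⟩ := hπs m
    exact key n 0 (Nat.zero_add n) ⟨c, hCN hc⟩ hc (hCS _ hc)

/-- a faithful representation over `KK` in which `[W, S, S', …, S^(n)] = 0`. -/
def HypD (n : ℕ) (Γ : Type u) [Group Γ] : Prop :=
  ∃ (W : Type u) (_ : AddCommGroup W) (_ : Module KK W) (_ : FiniteDimensional KK W)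
    (H : Γ →* Module.End KK W), (∀ x, H x = 1 → x = 1) ∧
    ∀ S : Subgroup Γ, IsPGroup 2 S → ∀ v, v ∈ Zn H n S

/-- lifting `2`-subgroups. -/
theorem lift_twosub {G K : Type*} [Group G] [Finite G] [Group K] (f : G →* K)
    (hf : Function.Surjective f) {S : Subgroup K} (hS : IsPGroup 2 S) :
    ∃ T : Subgroup G, IsPGroup 2 T ∧ S ≤ T.map f := by
  have h2f : Fact (Nat.Prime 2) := ⟨Nat.prime_two⟩
  obtain ⟨P, hP⟩ := hS.exists_le_sylow
  obtain ⟨R, hR⟩ := Sylow.mapSurjective_surjective hf 2 P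
  refine ⟨R, R.2, ?_⟩
  refine hP.trans ?_
  rw [← hR]
  exact le_rfl

theorem Zn_baseChange {G : Type u} [Group G] {M : Type u} [AddCommGroup M]
    [Module (ZMod 2) M] (ρ : G →* Module.End (ZMod 2) M)
    (H : G →* Module.End KK (TensorProduct (ZMod 2) KK M))
    (hH : ∀ g m, H g (TensorProduct.tmul (ZMod 2) 1 m) = TensorProduct.tmul (ZMod 2) 1 (ρ g m)) :
    ∀ (n : ℕ) (S : Subgroup G) (m : M), m ∈ Zn ρ n S →
      (TensorProduct.tmul (ZMod 2) (1 : KK) m) ∈ Zn H n S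
  | 0, S, m, h => by
    rw [mem_Zn_zero] at h ⊢
    intro x hx
    rw [hH, h x hx]
  | n + 1, S, m, h => by
    rw [mem_Zn_succ] at h ⊢
    intro x hx
    rw [hH, ← TensorProduct.tmul_sub]
    exact Zn_baseChange ρ H hH n _ _ (h x hx)

theorem Zn_tensor {G : Type u} [Group G] {M : Type u} [AddCommGroup M]
    [Module (ZMod 2) M] (ρ : G →* Module.End (ZMod 2) M)
    (H : G →* Module.End KK (TensorProduct (ZMod 2) KK M))
    (hH : ∀ g m, H g (TensorProduct.tmul (ZMod 2) 1 m) = TensorProduct.tmul (ZMod 2) 1 (ρ g m))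
    {n : ℕ} {S : Subgroup G} (h : ∀ m, m ∈ Zn ρ n S) (v : TensorProduct (ZMod 2) KK M) :
    v ∈ Zn H n S := by
  induction v using TensorProduct.induction_on with
  | zero => exact zero_mem _
  | tmul a m =>
    have h1 : TensorProduct.tmul (ZMod 2) a m = a • TensorProduct.tmul (ZMod 2) (1 : KK) m := by
      rw [TensorProduct.smul_tmul', smul_eq_mul, mul_one]
    rw [h1]
    exact Submodule.smul_mem _ _ (Zn_baseChange ρ H hH n S m (h m))
  | add x y hx hy => exact add_mem hx hy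

theorem hypD_range {G : Type u} [Group G] [Finite G] {M : Type u} [AddCommGroup M]
    [Module (ZMod 2) M] [Finite M] (ρ : Representation (ZMod 2) G M) {n : ℕ}
    (hnil : ∀ S : Subgroup G, IsPGroup 2 S →
      ∀ m, m ∈ Zn (ρ : G →* Module.End (ZMod 2) M) n S) :
    HypD n (MonoidHom.range (MonoidHom.toHomUnits (ρ : G →* Module.End (ZMod 2) M))) := by
  set γ := MonoidHom.toHomUnits (ρ : G →* Module.End (ZMod 2) M) with hγ
  have hγρ : ∀ g, ((γ g : (Module.End (ZMod 2) M)ˣ) : Module.End (ZMod 2) M) = ρ g := fun g => rfl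
  have hinj : Function.Injective (Module.End.baseChangeHom (ZMod 2) KK M) :=
    LinearMap.baseChangeHom_injective (ZMod 2) M KK
  set B := Module.End.baseChangeHom (ZMod 2) KK M with hB
  have hfd : FiniteDimensional (ZMod 2) M := Module.Finite.of_finite
  refine ⟨TensorProduct (ZMod 2) KK M, inferInstance, inferInstance, inferInstance,
    B.toMonoidHom.comp ((Units.coeHom _).comp γ.range.subtype), ?_, ?_⟩
  · intro x hx
    apply Subtype.ext
    apply Units.ext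
    apply hinj
    rw [Subgroup.coe_one, Units.val_one, map_one]
    exact hx
  · intro S hS v
    obtain ⟨T, hT2, hST⟩ := lift_twosub γ.rangeRestrict γ.rangeRestrict_surjective hS
    refine Zn_anti _ n hST ?_
    rw [← Zn_comap]
    exact Zn_tensor (ρ : G →* Module.End (ZMod 2) M) _ (fun g m => rfl) (hnil T hT2) v

theorem goodD {G : Type u} [Group G] [Finite G] (hsol : Group.IsSolvable G)
    (hO2 : pCore 2 G = ⊥) {n : ℕ} (hH : HypD (n + 1) G)
    (IH : ∀ (Γ : Type u) [Group Γ] [Finite Γ], Group.IsSolvable Γ → pCore 2 Γ = ⊥ → HypD n Γ →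
      PLengthLE 2 n Γ)
    {L : Subgroup G} [hLn : L.Normal] (hUL : pPrimePCore 2 G ≤ L)
    (hne : ¬ L ≤ pPrimePCore 2 G) (hodd : ((pPrimePCore 2 G).relIndex L).Coprime 2) :
    ∃ K : Subgroup G, ∃ _ : K.Normal, pPrimePCore 2 G ≤ K ∧ ¬ L ≤ K ∧ PLengthLE 2 n (G ⧸ K) := by
  have h2f : Fact (Nat.Prime 2) := ⟨Nat.prime_two⟩
  obtain ⟨P, hP2, hPU, hUOP, hcen, hNU⟩ := setup hsol
  have hUn : (pPrimePCore 2 G).Normal := by rw [pPrimePCore]; infer_instance
  set U := pPrimePCore 2 G with hU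
  set O := pPrimeCore 2 G with hO
  have hOU : O ≤ U := core_le
  set N := normalizer (P : Set G) with hN
  have hPN : P ≤ N := le_normalizer
  obtain ⟨C, Z₁, hCP, hNC, hZC, hNZ, hCL, hCPZ, hsq, hmax, hstr⟩ := exists_crit hP2 hPN
    (le_refl (normalizer (P : Set G))) (oddGen_le L N) (oddGen_norm L N) (oddGen_cop L N)
    (oddGen_ne hcen hNU hUL hne hodd)
  have hCN : C ≤ N := hCP.trans hPN
  obtain ⟨M, i1, i2, i3, ρ, hnt, hirr, hone, hnilρ⟩ := exists_rep_der hCP hPN hNC hNZ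
    (oddGen_le L N) hCL hCPZ hsq hmax
  obtain ⟨W, j1, j2, j3, H, hinj, hnil⟩ := hH
  have hnil1 : ∀ S : Subgroup N, IsPGroup 2 S →
      ∀ m, m ∈ Zn (ρ : N →* Module.End (ZMod 2) M) n S := by
    intro S hS2 m
    have hPn : (P.subgroupOf N).Normal := normal_subgroupOf_of_le_normalizer le_rfl
    have hS2' : IsPGroup 2 (S ⊔ P.subgroupOf N : Subgroup N) :=
      IsPGroup.to_sup_of_normal_right hS2 hP2.comap_subtype
    refine Zn_anti _ n (le_sup_left : S ≤ S ⊔ P.subgroupOf N) ?_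
    refine hnilρ n (S ⊔ P.subgroupOf N) ?_ ?_ m
    · intro g hg
      exact mem_sup_right (hCP hg)
    · intro x hx hxC t ht
      refine DerFin.der_mem hsol hO2 H hinj (n := n) hnil (hP2.to_le hCP) hCN hNC hmax hstr
        (S := (S ⊔ P.subgroupOf N).map N.subtype) (hS2'.map _) (map_subtype_le _) hxC ?_ ?_
      · rw [← dser_map]; exact ⟨x, hx, rfl⟩
      · rw [← dser_map]; exact ⟨t, ht, rfl⟩
  have hsolN : Group.IsSolvable N := by
    have := hsol
    infer_instance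
  set γ := MonoidHom.toHomUnits (ρ : N →* Module.End (ZMod 2) M) with hγ
  have hγρ : ∀ g, ((γ g : (Module.End (ZMod 2) M)ˣ) : Module.End (ZMod 2) M) = ρ g := fun g => rfl
  have hfinr : Finite γ.range := Finite.of_surjective _ γ.rangeRestrict_surjective
  have hlen : PLengthLE 2 n γ.range := by
    apply IH
    · exact Group.isSolvable_of_surjective γ.rangeRestrict_surjective
    · exact pCore_range ρ hirr
    · exact hypD_range ρ hnil1
  -- `N ⊓ U` acts trivially on `C / Z₁`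
  have hker1 : ∀ g : N, g ∈ γ.ker ↔ ∀ c ∈ C, (g : G) * c * (g : G)⁻¹ * c⁻¹ ∈ Z₁ := by
    intro g
    rw [MonoidHom.mem_ker, ← hone, Units.ext_iff, hγρ, Units.val_one]
  have hPker : ∀ g (hg : g ∈ P), (⟨g, hPN hg⟩ : N) ∈ γ.ker := by
    intro g hg
    rw [hker1]
    intro c hc
    have h1 : ⁅g, c⁆ ∈ ⁅P, C⁆ := commutator_mem_commutator hg hc
    rw [commutator_comm] at h1
    exact hCPZ h1
  have hOP : O ⊓ P = ⊥ := by
    have h1 := H32Cores.pPrimeCore_coprime (G := G) 2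
    obtain ⟨a, ha⟩ := IsPGroup.iff_card.mp hP2
    apply inf_eq_bot_of_coprime'
    rw [ha]
    exact Nat.Coprime.pow_right a h1
  have hUker : ∀ g (hg : g ∈ N), g ∈ U → (⟨g, hg⟩ : N) ∈ γ.ker := by
    intro g hg hgU
    have hPO : P ≤ normalizer (O : Set G) := by
      rw [Subgroup.normalizer_eq_top_iff.2 (inferInstance : O.Normal)]; exact le_top
    obtain ⟨o, ho, p, hp, rfl⟩ := (mem_sup_of_le_normalizer hPO).1 (hUOP hgU)
    have hoN : o ∈ N := by
      have := mul_mem hg (inv_mem (hPN hp))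
      rwa [mul_inv_cancel_right] at this
    have e : (⟨o * p, hg⟩ : N) = ⟨o, hoN⟩ * ⟨p, hPN hp⟩ := rfl
    rw [e]
    apply mul_mem _ (hPker p hp)
    rw [hker1]
    intro c hc
    have h1 : o * c * o⁻¹ * c⁻¹ ∈ O ⊓ P := by
      rw [mem_inf]
      constructor
      · have h2 := (inferInstance : O.Normal).conj_mem o⁻¹ (inv_mem ho) c
        have h3 := mul_mem ho h2
        have e2 : o * c * o⁻¹ * c⁻¹ = o * (c * o⁻¹ * c⁻¹) := by group
        rw [e2]; exact h3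
      · exact P.mul_mem ((mem_normalizer_iff.1 hoN c).1 (hCP hc)) (P.inv_mem (hCP hc))
    rw [hOP, Subgroup.mem_bot] at h1
    change o * c * o⁻¹ * c⁻¹ ∈ Z₁
    rw [h1]
    exact one_mem _
  set K₁ : Subgroup G := γ.ker.map N.subtype with hK₁
  have hK₁N : K₁ ≤ N := map_subtype_le _
  have hNK₁ : N ≤ normalizer (K₁ : Set G) := by
    refine nle_of_conj fun x hx a ha => ?_
    obtain ⟨b, hb, rfl⟩ := ha
    exact ⟨⟨x, hx⟩ * b * ⟨x, hx⟩⁻¹, (inferInstance : γ.ker.Normal).conj_mem b hb ⟨x, hx⟩, rfl⟩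
  set K : Subgroup G := U ⊔ K₁ with hK
  have hNUn : N ≤ normalizer (U : Set G) := by
    rw [Subgroup.normalizer_eq_top_iff.2 hUn]; exact le_top
  have hKn : K.Normal := by
    rw [← Subgroup.normalizer_eq_top_iff, eq_top_iff, ← hNU]
    apply sup_le
    · refine nle_of_conj fun x hx a ha => ?_
      obtain ⟨b, hb, c, hc, rfl⟩ := (mem_sup_of_le_normalizer (hK₁N.trans hNUn)).1 ha
      have e : x * (b * c) * x⁻¹ = (x * b * x⁻¹) * (x * c * x⁻¹) := by group
      rw [e]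
      exact mul_mem (mem_sup_left (hUn.conj_mem b hb x))
        (mem_sup_right ((mem_normalizer_iff.1 (hNK₁ hx) c).1 hc))
    · exact le_sup_left.trans le_normalizer
  refine ⟨K, hKn, le_sup_left, ?_, ?_⟩
  · intro hLK
    apply hCL
    have h1 : oddGen L N ≤ K₁ := by
      rw [oddGen, closure_le]
      rintro t ⟨⟨h1, h2⟩, -⟩
      obtain ⟨u, hu, a, ha, hua⟩ := (mem_sup_of_le_normalizer (hK₁N.trans hNUn)).1 (hLK h1)
      have hu' : u ∈ N := by
        have := mul_mem h2 (inv_mem (hK₁N ha))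
        rwa [← hua, mul_inv_cancel_right] at this
      rw [SetLike.mem_coe, ← hua]
      exact mul_mem ⟨_, hUker u hu' hu, rfl⟩ ha
    rw [commutator_le]
    intro c hc t ht
    obtain ⟨b, hb, rfl⟩ := h1 ht
    have h2 := inv_mem ((hker1 b).1 hb c hc)
    have e : ⁅c, N.subtype b⁆ = ((b : G) * c * (b : G)⁻¹ * c⁻¹)⁻¹ := by
      rw [commutatorElement_def]
      change c * (b : G) * c⁻¹ * (b : G)⁻¹ = _
      group
    rw [e]; exact h2
  · refine pLengthLE_of_ker γ ((QuotientGroup.mk' K).comp N.subtype) ?_ ?_ hlen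
    · intro b
      obtain ⟨x, rfl⟩ := QuotientGroup.mk'_surjective K b
      have h1 : x ∈ U ⊔ N := by rw [sup_comm, hNU]; trivial
      obtain ⟨k, hk, u, hu, rfl⟩ := (mem_sup_of_le_normalizer' hNUn).1 h1
      refine ⟨⟨k, hk⟩, ?_⟩
      change QuotientGroup.mk' K k = QuotientGroup.mk' K (k * u)
      rw [map_mul]
      have : QuotientGroup.mk' K u = 1 := (QuotientGroup.eq_one_iff u).2 (mem_sup_left hu)
      rw [this, mul_one]
    · intro x hx
      rw [MonoidHom.mem_ker]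
      exact (QuotientGroup.eq_one_iff (x : G)).2 (mem_sup_right ⟨x, hx, rfl⟩)

theorem mainD : ∀ (n : ℕ) (Γ : Type u) [Group Γ] [Finite Γ], Group.IsSolvable Γ → pCore 2 Γ = ⊥ →
    HypD n Γ → PLengthLE 2 n Γ := by
  have h2f : Fact (Nat.Prime 2) := ⟨Nat.prime_two⟩
  intro n
  induction n with
  | zero =>
    intro Γ _ _ hsol hO2 ⟨W, i1, i2, i3, H, hinj, hnil⟩
    rw [pLengthLE_zero_iff, Nat.coprime_comm, Nat.Prime.coprime_iff_not_dvd Nat.prime_two]
    intro hdvd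
    obtain ⟨x, hx⟩ := exists_prime_orderOf_dvd_card' 2 hdvd
    have h2x : IsPGroup 2 (zpowers x) := BryFin.isPGroup_zpowers (n := 1) (by
      rw [pow_one, ← hx, pow_orderOf_eq_one])
    have h1 : H x = 1 := by
      refine LinearMap.ext fun v => ?_
      exact (mem_Zn_zero H).1 (hnil _ h2x v) x (mem_zpowers x)
    rw [hinj x h1, orderOf_one] at hx
    exact absurd hx (by norm_num)
  | succ n ih =>
    intro Γ _ _ hsol hO2 hH
    exact residual hsol fun {L} _ h1 h2 h3 => goodD hsol hO2 hH ih h1 h2 h3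

end Cfsg.Agent.Lib.DerMain
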