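import Cfsg.Agent.Lib.DerR1
import Cfsg.Agent.Lib.DerGrp

/-!
Heisenberg data in characteristic two: tools for `[W, T, T', T''] = 0` (helper59).
-/

set_option autoImplicit false

namespace Cfsg.Agent.Lib.DerHD

open Module Subgroup Cfsg Cfsg.Agent.Lib.SympFix Cfsg.Agent.Lib.DerZn
open scoped commutatorElement

universe u v w t

section

variable {X : Type u} [Group X] {k : Type v} [Field k] [hk2 : CharP k 2] {W : Type w}
    [AddCommGroup W] [Module k W] {q : ℕ} {M : Type t} [AddCommGroup M] [Module (ZMod q) M]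
    {H : X →* Module.End k W} {ρ : X →* Module.End (ZMod q) M} {O : M → Module.End k W}
    {e : M → M → k} {T : Subgroup X} {W' : Submodule k W} {M' : Submodule (ZMod q) M}

/-- kernel on `M'` -/
def Ck (ρ : X →* Module.End (ZMod q) M) (T : Subgroup X) (M' : Submodule (ZMod q) M) :
    Subgroup X where
  carrier := {t | t ∈ T ∧ ∀ m ∈ M', ρ t m = m}
  one_mem' := ⟨one_mem _, fun m _ => by rw [map_one, Module.End.one_apply]⟩
  mul_mem' := fun {a b} ha hb => ⟨mul_mem ha.1 hb.1, fun m hm => by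
    rw [ρmul, hb.2 m hm, ha.2 m hm]⟩
  inv_mem' := fun {a} ha => ⟨inv_mem ha.1, fun m hm => ρinv (ha.2 m hm)⟩

omit hk2 in
theorem mem_Ck {x : X} : x ∈ Ck ρ T M' ↔ x ∈ T ∧ ∀ m ∈ M', ρ x m = m := Iff.rfl

omit hk2 in
theorem Cf.Ck_conj (C : Cf H ρ O e T W' M') {t c : X} (ht : t ∈ T) (hc : c ∈ Ck ρ T M') :
    t * c * t⁻¹ ∈ Ck ρ T M' := by
  refine ⟨mul_mem (mul_mem ht hc.1) (inv_mem ht), fun m hm => ?_⟩
  rw [ρmul, ρmul, hc.2 _ (C.tM _ (inv_mem ht) m hm), ← ρmul, mul_inv_cancel, map_one,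
    Module.End.one_apply]

omit hk2 in
theorem comm_mem_self {x y : X} (hx : x ∈ T) (hy : y ∈ T) : ⁅x, y⁆ ∈ T := by
  rw [commutatorElement_def]
  exact mul_mem (mul_mem (mul_mem hx hy) (inv_mem hx)) (inv_mem hy)

omit hk2 in
theorem Cf.comm_mem_Ck (C : Cf H ρ O e T W' M') {x y : X} (hx : x ∈ T) (hy : y ∈ T)
    (h : ∀ m ∈ M', ρ x (ρ y m) = ρ y (ρ x m)) : ⁅x, y⁆ ∈ Ck ρ T M' :=
  ⟨comm_mem_self hx hy, C.comm_one hx hy h⟩

/-- no vectors of order two. -/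
theorem Cf.zero_of_add (h : HD H ρ O e) (C : Cf H ρ O e T W' M') {m : M} (hm : m ∈ M')
    (hmm : m + m = 0) : m = 0 := by
  apply C.nd m hm
  intro n _
  apply e_sq h.pair
  rw [← h.pair.add_left, hmm, h.pair.zero_left]

theorem Cf.zero_of_neg (h : HD H ρ O e) (C : Cf H ρ O e T W' M') {m : M} (hm : m ∈ M')
    (hmm : m = -m) : m = 0 := by
  apply C.zero_of_add h hm
  nth_rewrite 1 [hmm]
  exact neg_add_cancel m

/-- an element trivial on the fixed space and the negative space of `s` is trivial -/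
theorem Cf.triv_of_split (h : HD H ρ O e) (C : Cf H ρ O e T W' M') {s g : X} (hs : s ∈ T)
    (hg : g ∈ T) (hs2 : ∀ m ∈ M', ρ s (ρ s m) = m) (h1 : ∀ m ∈ M', ρ s m = m → ρ g m = m)
    (h2 : ∀ m ∈ M', ρ s m = -m → ρ g m = m) : ∀ m ∈ M', ρ g m = m := by
  intro m hm
  have hsm := C.tM s hs m hm
  have e1 := h1 (m + ρ s m) (add_mem hm hsm) (by rw [map_add, hs2 m hm, add_comm])
  have e2 := h2 (m - ρ s m) (sub_mem hm hsm) (by rw [map_sub, hs2 m hm, neg_sub])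
  rw [map_add] at e1
  rw [map_sub] at e2
  rw [← sub_eq_zero]
  apply C.zero_of_add h (sub_mem (C.tM g hg m hm) hm)
  have e3 : ρ g m + ρ g m = m + m := by
    calc ρ g m + ρ g m = (ρ g m + ρ g (ρ s m)) + (ρ g m - ρ g (ρ s m)) := by abel
      _ = (m + ρ s m) + (m - ρ s m) := by rw [e1, e2]
      _ = m + m := by abel
  calc ρ g m - m + (ρ g m - m) = (ρ g m + ρ g m) - (m + m) := by abel
    _ = 0 := by rw [e3, sub_self]

/-- restriction to the negative space -/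
theorem Cf.restrict_neg (h : HD H ρ O e) (C : Cf H ρ O e T W' M') {b : X} (hb : b ∈ T)
    (hb2 : ∀ m ∈ M', ρ b (ρ b m) = m) {T₁ : Subgroup X} (hT₁ : T₁ ≤ T)
    (hc : ∀ t ∈ T₁, ∀ m ∈ M', ρ b (ρ t m) = ρ t (ρ b m)) : Cf H ρ O e T₁ W' (neg ρ b M') where
  p2 := C.p2.to_le hT₁
  ne := C.ne
  tW := fun t ht => C.tW t (hT₁ ht)
  tM := fun t ht m hm => ⟨C.tM t (hT₁ ht) m hm.1, by rw [hc t ht m hm.1, hm.2, map_neg]⟩
  io := fun m hm => C.io m hm.1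
  nd := by
    intro m hm hn
    by_contra hm0
    obtain ⟨n, hnM, hbn, hmn⟩ := C.pair_neg h hb hb2 hm.1 hm.2 hm0
    exact hmn (hn n ⟨hnM, hbn⟩)

/-- restriction to the fixed space -/
theorem Cf.restrict_fix (h : HD H ρ O e) (C : Cf H ρ O e T W' M') {b : X} (hb : b ∈ T)
    (hb2 : ∀ m ∈ M', ρ b (ρ b m) = m) {T₁ : Subgroup X} (hT₁ : T₁ ≤ T)
    (hc : ∀ t ∈ T₁, ∀ m ∈ M', ρ b (ρ t m) = ρ t (ρ b m)) : Cf H ρ O e T₁ W' (fix ρ b M') where
  p2 := C.p2.to_le hT₁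
  ne := C.ne
  tW := fun t ht => C.tW t (hT₁ ht)
  tM := fun t ht m hm => ⟨C.tM t (hT₁ ht) m hm.1, by rw [hc t ht m hm.1, hm.2]⟩
  io := fun m hm => C.io m hm.1
  nd := by
    intro m hm hn
    by_contra hm0
    obtain ⟨n, hnM, hbn, hmn⟩ := C.pair_fix h hb hb2 hm.1 hm.2 hm0
    exact hmn (hn n ⟨hnM, hbn⟩)

/-- the situation: `z ∈ T^(r)` acts as `-1` on `M'`. -/
structure St (H : X →* Module.End k W) (ρ : X →* Module.End (ZMod q) M) (O : M → Module.End k W)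
    (e : M → M → k) (T : Subgroup X) (W' : Submodule k W) (M' : Submodule (ZMod q) M) (r : ℕ)
    (z : X) : Prop where
  C : Cf H ρ O e T W' M'
  Z : W' ≤ Zn H r T
  zm : z ∈ dser r T
  zn : ∀ m ∈ M', ρ z m = -m
  ne : M' ≠ ⊥

omit hk2 in
theorem St.zT {r : ℕ} {z : X} (S : St H ρ O e T W' M' r z) : z ∈ T := dser_le r T S.zm

/-- the properties of the element `s`. -/
structure Se (ρ : X →* Module.End (ZMod q) M) (T : Subgroup X) (M' : Submodule (ZMod q) M)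
    (s : X) : Prop where
  hs : s ∈ ⁅T, T⁆
  s2 : ∀ m ∈ M', ρ s (ρ s m) = m
  ne1 : ∃ m ∈ M', ρ s m ≠ m
  ne2 : ∃ m ∈ M', ρ s m ≠ -m

/-- the centralizer of `s` -/
def Cs (ρ : X →* Module.End (ZMod q) M) (T : Subgroup X) (M' : Submodule (ZMod q) M)
    (hTM : ∀ t ∈ T, ∀ m ∈ M', ρ t m ∈ M') (s : X) : Subgroup X where
  carrier := {t | t ∈ T ∧ ∀ m ∈ M', ρ s (ρ t m) = ρ t (ρ s m)}
  one_mem' := ⟨one_mem _, fun m _ => by rw [map_one, Module.End.one_apply, Module.End.one_apply]⟩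
  mul_mem' := fun {a b} ha hb => ⟨mul_mem ha.1 hb.1, fun m hm => by
    rw [ρmul, ρmul, ha.2 _ (hTM b hb.1 m hm), hb.2 m hm]⟩
  inv_mem' := fun {a} ha => ⟨inv_mem ha.1, fun m hm => by
    have h1 := hTM _ (inv_mem ha.1) m hm
    have h2 := ha.2 _ h1
    rw [← ρmul a a⁻¹, mul_inv_cancel, map_one, Module.End.one_apply] at h2
    rw [h2, ← ρmul a⁻¹ a, inv_mul_cancel, map_one, Module.End.one_apply]⟩

omit hk2 in
theorem mem_Cs {hTM : ∀ t ∈ T, ∀ m ∈ M', ρ t m ∈ M'} {s x : X} :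
    x ∈ Cs ρ T M' hTM s ↔ x ∈ T ∧ ∀ m ∈ M', ρ s (ρ x m) = ρ x (ρ s m) := Iff.rfl

omit hk2 in
/-- the two components are nonzero -/
theorem Se.fix_ne (C : Cf H ρ O e T W' M') {s : X} (E : Se ρ T M' s) :
    ∃ m ∈ fix ρ s M', m ≠ 0 := by
  obtain ⟨m, hm, hne⟩ := E.ne2
  refine ⟨m + ρ s m, ⟨add_mem hm (C.tM s (comm_le_self T E.hs) m hm), by
    rw [map_add, E.s2 m hm, add_comm]⟩, ?_⟩
  intro h0
  apply hne
  rw [eq_neg_iff_add_eq_zero, add_comm]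
  exact h0

omit hk2 in
theorem Se.neg_ne (C : Cf H ρ O e T W' M') {s : X} (E : Se ρ T M' s) :
    ∃ m ∈ neg ρ s M', m ≠ 0 := by
  obtain ⟨m, hm, hne⟩ := E.ne1
  refine ⟨m - ρ s m, ⟨sub_mem hm (C.tM s (comm_le_self T E.hs) m hm), by
    rw [map_sub, E.s2 m hm, neg_sub]⟩, ?_⟩
  intro h0
  exact hne (sub_eq_zero.1 h0).symm

omit hk2 in
/-- sign of the commutation with `s` -/
theorem sgn_comm (C : Cf H ρ O e T W' M') {s : X}
    (hsg : ∀ g ∈ T, (∀ m ∈ M', ρ s (ρ g m) = ρ g (ρ s m)) ∨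
      (∀ m ∈ M', ρ s (ρ g m) = -ρ g (ρ s m))) :
    ⁅T, T⁆ ≤ Cs ρ T M' C.tM s := by
  have hsg' : ∀ g ∈ T, ∃ c : ℤ, c * c = 1 ∧ (∀ m ∈ M', ρ s (ρ g m) = c • ρ g (ρ s m)) ∧
      (∀ m ∈ M', ρ s (ρ g⁻¹ m) = c • ρ g⁻¹ (ρ s m)) := by
    intro g hg
    obtain ⟨c, hc, h1⟩ : ∃ c : ℤ, c * c = 1 ∧ ∀ m ∈ M', ρ s (ρ g m) = c • ρ g (ρ s m) := by
      rcases hsg g hg with h1 | h1
      · exact ⟨1, by norm_num, fun m hm => by rw [one_smul, h1 m hm]⟩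
      · exact ⟨-1, by norm_num, fun m hm => by rw [neg_one_smul, h1 m hm]⟩
    refine ⟨c, hc, h1, ?_⟩
    intro m hm
    have h2 := h1 _ (C.tM _ (inv_mem hg) m hm)
    rw [← ρmul g g⁻¹, mul_inv_cancel, map_one, Module.End.one_apply] at h2
    rw [h2, map_zsmul, smul_smul, hc, one_smul, ← ρmul g⁻¹ g, inv_mul_cancel, map_one,
      Module.End.one_apply]
  rw [commutator_le]
  intro x hx y hy
  obtain ⟨c, hc, hc1, hc2⟩ := hsg' x hx
  obtain ⟨d, hd, hd1, hd2⟩ := hsg' y hy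
  refine ⟨comm_mem_self hx hy, ?_⟩
  intro m hm
  have m1 := C.tM _ (inv_mem hy) m hm
  have m2 := C.tM _ (inv_mem hx) _ m1
  have m3 := C.tM y hy _ m2
  rw [commutatorElement_def, ρmul, ρmul, ρmul, ρmul, ρmul, ρmul, hc1 _ m3, hd1 _ m2, hc2 _ m1,
    hd2 m hm]
  simp only [map_zsmul, smul_smul]
  have : c * (d * (c * d)) = (c * c) * (d * d) := by ring
  rw [this, hc, hd, one_mul, one_smul]

end

end Cfsg.Agent.Lib.DerHD
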