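import Cfsg.Agent.Lib.DerR2

/-!
Heisenberg data in characteristic two: the contradiction for `r ≥ 2` (helper59).
-/

set_option autoImplicit false

namespace Cfsg.Agent.Lib.DerHD

open Module Subgroup Cfsg Cfsg.Agent.Lib.SympFix Cfsg.Agent.Lib.DerZn
open scoped commutatorElement

universe u v w t

section

variable {X : Type u} [Group X] {k : Type v} [Field k] [hk2 : CharP k 2] {W : Type w}
    [AddCommGroup W] [Module k W] {q : ℕ} {M : Type t} [AddCommGroup M] [Module (ZMod q) M]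
    {H : X →* Module.End k W} {ρ : X →* Module.End (ZMod q) M} {O : M → Module.End k W}
    {e : M → M → k} {T : Subgroup X} {W' : Submodule k W} {M' : Submodule (ZMod q) M}

/-- the commutator `[W', C]` -/
def WC (H : X →* Module.End k W) (D : Subgroup X) (W' : Submodule k W) : Submodule k W :=
  Submodule.span k {v | ∃ c ∈ D, ∃ w ∈ W', v = H c w - w}

theorem WC_Cf (h : HD H ρ O e) (C : Cf H ρ O e T W' M') (hne : WC H (Ck ρ T M') W' ≠ ⊥) :
    Cf H ρ O e T (WC H (Ck ρ T M') W') M' where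
  p2 := C.p2
  ne := hne
  tM := C.tM
  nd := C.nd
  tW := by
    intro t ht
    have h1 : WC H (Ck ρ T M') W' ≤ (WC H (Ck ρ T M') W').comap (H t) := by
      conv_lhs => rw [WC]
      rw [Submodule.span_le]
      rintro _ ⟨c, hc, w, hw, rfl⟩
      refine Submodule.subset_span ⟨t * c * t⁻¹, C.Ck_conj ht hc, H t w, C.tW t ht w hw, ?_⟩
      rw [map_sub, ← Hmul, ← Hmul]
      congr 3
      group
    exact h1
  io := by
    intro m hm
    have h1 : WC H (Ck ρ T M') W' ≤ (WC H (Ck ρ T M') W').comap (O m) := by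
      conv_lhs => rw [WC]
      rw [Submodule.span_le]
      rintro _ ⟨c, hc, w, hw, rfl⟩
      refine Submodule.subset_span ⟨c, hc, O m w, C.io m hm w hw, ?_⟩
      rw [map_sub, h.commute (C.two hc.1) (hc.2 m hm)]
    exact h1

omit hk2 in
theorem WC_Zn {r : ℕ} (hZ : W' ≤ Zn H (r + 1) T) {D : Subgroup X} (hD : D ≤ T) :
    WC H D W' ≤ Zn H r ⁅T, T⁆ := by
  rw [WC, Submodule.span_le]
  rintro _ ⟨c, hc, w, hw, rfl⟩
  exact (mem_Zn_succ H).1 (hZ hw) c (hD hc)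

omit hk2 in
theorem WC_triv {D : Subgroup X} (hbot : WC H D W' = ⊥) : ∀ c ∈ D, ∀ w ∈ W', H c w = w := by
  intro c hc w hw
  have h1 : H c w - w ∈ WC H D W' := Submodule.subset_span ⟨c, hc, w, hw, rfl⟩
  rw [hbot, Submodule.mem_bot, sub_eq_zero] at h1
  exact h1

/-- `(b - 1)(s - 1) = 0` on `W'` with `b = -1` on the fixed space of `s` forces `s = 1` on `W'`. -/
theorem fix_triv (h : HD H ρ O e) (C : Cf H ρ O e T W' M') {s b : X} (hs : s ∈ T)
    (hs2 : ∀ m ∈ M', ρ s (ρ s m) = m) (hfix : ∃ m ∈ fix ρ s M', m ≠ 0)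
    (hb : ∀ m ∈ fix ρ s M', ρ b m = -m) (hbs : ∀ w ∈ W', H b (H s w - w) = H s w - w) :
    ∀ w ∈ W', H s w = w := by
  obtain ⟨m, hm, hm0⟩ := hfix
  obtain ⟨n, hn, hsn, hmn⟩ := C.pair_fix h hs hs2 hm.1 hm.2 hm0
  exact h.claimA (M' := fix ρ s M') (fun m hm => C.io m hm.1) (C.two hs) (fun m hm => hm.2) hb hbs
    ⟨m, hm, n, ⟨hn, hsn⟩, hmn⟩

theorem wc_two (h : HD H ρ O e) {z s : X} (S : St H ρ O e T W' M' 2 z) (E : Se ρ T M' s) :
    ∀ c ∈ Ck ρ T M', ∀ w ∈ W', H c w = w := by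
  apply WC_triv
  by_contra hne
  have C' := WC_Cf h S.C hne
  have hZ := WC_Zn S.Z (D := Ck ρ T M') (fun c hc => hc.1)
  have hsT : s ∈ T := comm_le_self T E.hs
  have h1 := fix_triv h C' hsT E.s2 (E.fix_ne S.C) (b := z) (fun m hm => S.zn m hm.1) (by
    intro w hw
    exact (mem_Zn_zero H).1 ((mem_Zn_succ H).1 (hZ hw) s E.hs) z S.zm)
  have h2 := h.triv C'.io C'.ne C'.nd (C'.tM s hsT) h1
  obtain ⟨m, hm, hne⟩ := E.ne1
  exact hne (h2 m hm)

theorem wc_gen (h : HD H ρ O e) {r : ℕ} {z : X}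
    (IH : ∀ {T : Subgroup X} {W' : Submodule k W} {M' : Submodule (ZMod q) M},
      St H ρ O e T W' M' r z → False) (S : St H ρ O e T W' M' (r + 1) z) :
    ∀ c ∈ Ck ρ T M', ∀ w ∈ W', H c w = w := by
  apply WC_triv
  by_contra hne
  have C' := WC_Cf h S.C hne
  have hZ := WC_Zn S.Z (D := Ck ρ T M') (fun c hc => hc.1)
  exact IH (T := ⁅T, T⁆) ⟨C'.mono (comm_le_self T), hZ, S.zm, S.zn, S.ne⟩

/-- the element `s`. -/
theorem exists_s [Finite X] (h : HD H ρ O e) {r : ℕ} {z : X} (S : St H ρ O e T W' M' (r + 2) z) :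
    ∃ s ∈ dser (r + 1) T, Se ρ T M' s ∧ ∀ g ∈ T, (∀ m ∈ M', ρ s (ρ g m) = ρ g (ρ s m)) ∨
      (∀ m ∈ M', ρ s (ρ g m) = -ρ g (ρ s m)) := by
  have hCT : Ck ρ T M' ≤ T := fun c hc => hc.1
  have hzT := S.zT
  obtain ⟨m₀, hm₀, hm₀0⟩ := (Submodule.ne_bot_iff _).1 S.ne
  have hznC : z ∉ Ck ρ T M' := by
    intro hz
    apply hm₀0
    apply S.C.zero_of_neg h hm₀
    rw [← S.zn m₀ hm₀, hz.2 m₀ hm₀]
  have hzN : z ∈ ⁅dser (r + 1) T, dser (r + 1) T⁆ := by
    rw [← dser_succ']; exact S.zm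
  have hNn : ∀ n : ℕ, ∀ t ∈ T, ∀ x ∈ dser n T, t * x * t⁻¹ ∈ dser n T := by
    intro n
    induction n with
    | zero => intro t ht x hx; exact mul_mem (mul_mem ht hx) (inv_mem ht)
    | succ n ih =>
      intro t ht
      have h1 : dser (n + 1) T ≤ (dser (n + 1) T).comap (MulAut.conj t).toMonoidHom := by
        rw [dser_succ', commutator_le]
        intro a ha b hb
        rw [mem_comap, map_commutatorElement]
        exact commutator_mem_commutator (ih t ht a ha) (ih t ht b hb)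
      exact fun x hx => h1 hx
  obtain ⟨s, hsN, hs1, hsz, hss, hsg⟩ := DerGrp.burn' S.C.p2 hCT
    (fun t ht c hc => S.C.Ck_conj ht hc) (N := dser (r + 1) T) (dser_le r ⁅T, T⁆) (hNn (r + 1))
    (by
      by_contra hcon
      push Not at hcon
      apply hznC
      have h1 : ⁅dser (r + 1) T, dser (r + 1) T⁆ ≤ Ck ρ T M' := by
        rw [commutator_le]
        exact hcon
      exact h1 hzN)
    (z := z) (dser_antitone (by omega) T S.zm) (by
      intro t ht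
      apply S.C.comm_mem_Ck ht hzT
      intro m hm
      rw [S.zn m hm, map_neg, S.zn _ (S.C.tM t ht m hm)])
    ⟨mul_mem hzT hzT, fun m hm => by rw [ρmul, S.zn m hm, map_neg, S.zn m hm, neg_neg]⟩
  have hsT' : s ∈ ⁅T, T⁆ := dser_le r ⁅T, T⁆ hsN
  have hsT : s ∈ T := comm_le_self T hsT'
  have hs2 : ∀ m ∈ M', ρ s (ρ s m) = m := fun m hm => by rw [← ρmul]; exact hss.2 m hm
  refine ⟨s, hsN, ⟨hsT', hs2, ?_, ?_⟩, ?_⟩
  · by_contra hcon
    push Not at hcon
    exact hs1 ⟨hsT, hcon⟩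
  · by_contra hcon
    push Not at hcon
    apply hsz
    refine ⟨mul_mem (inv_mem hzT) hsT, fun m hm => ?_⟩
    rw [ρmul, hcon m hm]
    exact ρinv (S.zn m hm)
  · intro g hg
    rcases hsg g hg with h1 | h1
    · left
      intro m hm
      exact (S.C.one_comm hg hsT h1.2 m hm).symm
    · right
      intro m hm
      have h2 : ∀ m ∈ M', ρ ⁅g, s⁆ m = -m := by
        intro m hm
        have h3 := h1.2 m hm
        rw [ρmul] at h3
        have h4 := congrArg (ρ z) h3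
        rw [← ρmul z z⁻¹, mul_inv_cancel, map_one, Module.End.one_apply, S.zn m hm] at h4
        exact h4
      have h3 : g * s = ⁅g, s⁆ * (s * g) := by rw [commutatorElement_def]; group
      have h4 : ρ g (ρ s m) = -ρ s (ρ g m) := by
        rw [← ρmul, h3, ρmul, h2 _ (S.C.tM _ (mul_mem hsT hg) m hm), ρmul]
      rw [h4, neg_neg]

/-- the restriction to `(s - 1) W'`. -/
theorem ws_Cf (h : HD H ρ O e) (C : Cf H ρ O e T W' M') {s : X} (E : Se ρ T M' s)
    (hwc : ∀ c ∈ Ck ρ T M', ∀ w ∈ W', H c w = w) :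
    Cf H ρ O e (Cs ρ T M' C.tM s) (W'.map (H s - 1)) (fix ρ s M') := by
  have hsT : s ∈ T := comm_le_self T E.hs
  have hcs : ∀ g ∈ Cs ρ T M' C.tM s, ∀ w ∈ W', H g (H s w) = H s (H g w) := by
    intro g hg w hw
    have h1 : ⁅g, s⁆ ∈ Ck ρ T M' := C.comm_mem_Ck hg.1 hsT (fun m hm => (hg.2 m hm).symm)
    have h2 : g * s = ⁅g, s⁆ * (s * g) := by rw [commutatorElement_def]; group
    rw [← Hmul, h2, Hmul, hwc _ h1 _ (C.tW _ (mul_mem hsT hg.1) w hw), Hmul]
  refine ⟨C.p2.to_le (fun g hg => hg.1), ?_, ?_, ?_, ?_, ?_⟩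
  · intro h0
    have h1 : ∀ w ∈ W', H s w = w := by
      intro w hw
      have h2 : (H s - 1) w ∈ W'.map (H s - 1) := ⟨w, hw, rfl⟩
      rw [h0, Submodule.mem_bot, LinearMap.sub_apply, Module.End.one_apply, sub_eq_zero] at h2
      exact h2
    have h2 := h.triv C.io C.ne C.nd (C.tM s hsT) h1
    obtain ⟨m, hm, hne⟩ := E.ne1
    exact hne (h2 m hm)
  · rintro g hg _ ⟨w, hw, rfl⟩
    refine ⟨H g w, C.tW g hg.1 w hw, ?_⟩
    rw [LinearMap.sub_apply, LinearMap.sub_apply, Module.End.one_apply, Module.End.one_apply,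
      map_sub, hcs g hg w hw]
  · intro g hg m hm
    exact ⟨C.tM g hg.1 m hm.1, by rw [hg.2 m hm.1, hm.2]⟩
  · rintro m hm _ ⟨w, hw, rfl⟩
    refine ⟨O m w, C.io m hm.1 w hw, ?_⟩
    rw [LinearMap.sub_apply, LinearMap.sub_apply, Module.End.one_apply, Module.End.one_apply,
      map_sub, h.commute (C.two hsT) hm.2]
  · exact (C.restrict_fix h hsT E.s2 (T₁ := Cs ρ T M' C.tM s) (fun g hg => hg.1)
      (fun g hg m hm => hg.2 m hm)).nd

omit hk2 in
theorem ws_Zn {r : ℕ} (hZ : W' ≤ Zn H (r + 1) T) {s : X} (hs : s ∈ T) :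
    W'.map (H s - 1) ≤ Zn H r ⁅T, T⁆ := by
  rintro _ ⟨w, hw, rfl⟩
  exact (mem_Zn_succ H).1 (hZ hw) s hs

/-- the inductive step -/
theorem core_succ [Finite X] (h : HD H ρ O e) {r : ℕ} {z : X}
    (IH : ∀ {T : Subgroup X} {W' : Submodule k W} {M' : Submodule (ZMod q) M},
      St H ρ O e T W' M' (r + 1) z → False) (S : St H ρ O e T W' M' (r + 2) z) : False := by
  obtain ⟨s, hsN, E, hsg⟩ := exists_s h S
  have hwc := wc_gen h IH S
  have C' := ws_Cf h S.C E hwc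
  have hle : ⁅T, T⁆ ≤ Cs ρ T M' S.C.tM s := sgn_comm S.C hsg
  have hsT : s ∈ T := comm_le_self T E.hs
  refine IH (T := ⁅T, T⁆) (W' := W'.map (H s - 1)) (M' := fix ρ s M')
    ⟨C'.mono hle, ws_Zn S.Z hsT, S.zm, fun m hm => S.zn m hm.1, ?_⟩
  obtain ⟨m, hm, hm0⟩ := E.fix_ne S.C
  exact (Submodule.ne_bot_iff _).2 ⟨m, hm, hm0⟩

end

end Cfsg.Agent.Lib.DerHD
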