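import Cfsg.Agent.Lib.DerR3

/-!
Heisenberg data in characteristic two: the contradiction for `r = 2` (helper59).
-/

set_option autoImplicit false

namespace Cfsg.Agent.Lib.DerHD

open Module Subgroup Cfsg Cfsg.Agent.Lib.SympFix Cfsg.Agent.Lib.DerZn
open scoped commutatorElement

universe u v w t

section

variable {X : Type u} [Group X] {k : Type v} [Field k] [hk2 : CharP k 2] {W : Type w}
    [AddCommGroup W] [Module k W] {q : ℕ} {M : Type t} [AddCommGroup M] [Module (ZMod q) M]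
    {H : X →* Module.End k W} {ρ : X →* Module.End (ZMod q) M} {O : M → Module.End k W}
    {e : M → M → k} {T : Subgroup X} {W' : Submodule k W} {M' : Submodule (ZMod q) M}

omit hk2 in
theorem Cs_comm (C : Cf H ρ O e T W' M') {s : X} (hsT : s ∈ T)
    (hwc : ∀ c ∈ Ck ρ T M', ∀ w ∈ W', H c w = w) :
    ∀ g ∈ Cs ρ T M' C.tM s, ∀ w ∈ W', H g (H s w) = H s (H g w) := by
  intro g hg w hw
  have h1 : ⁅g, s⁆ ∈ Ck ρ T M' := C.comm_mem_Ck hg.1 hsT (fun m hm => (hg.2 m hm).symm)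
  have h2 : g * s = ⁅g, s⁆ * (s * g) := by rw [commutatorElement_def]; group
  rw [← Hmul, h2, Hmul, hwc _ h1 _ (C.tW _ (mul_mem hsT hg.1) w hw), Hmul]

omit hk2 in
theorem St.z_mem_Cs {r : ℕ} {z s : X} (S : St H ρ O e T W' M' r z) (hs : s ∈ T) :
    z ∈ Cs ρ T M' S.C.tM s :=
  ⟨S.zT, fun m hm => by rw [S.zn m hm, map_neg, S.zn _ (S.C.tM s hs m hm)]⟩

theorem ub_two (h : HD H ρ O e) {z s : X} (S : St H ρ O e T W' M' 2 z) (E : Se ρ T M' s)
    (hwc : ∀ c ∈ Ck ρ T M', ∀ w ∈ W', H c w = w) :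
    Ub H ρ (Cs ρ T M' S.C.tM s) (W'.map (H s - 1)) (fix ρ s M') z := by
  have hsT : s ∈ T := comm_le_self T E.hs
  refine ⟨S.z_mem_Cs hsT, ?_, ?_, ?_⟩
  · rintro x hx _ ⟨w, hw, rfl⟩
    have h1 : H x ((H s - 1) w) - (H s - 1) w = H s (H x w - w) - (H x w - w) := by
      rw [LinearMap.sub_apply, Module.End.one_apply, map_sub, map_sub,
        Cs_comm S.C hsT hwc x hx w hw]
      abel
    rw [h1]
    exact (mem_Zn_zero H).1 ((mem_Zn_succ H).1 ((mem_Zn_succ H).1 (S.Z hw) x hx.1) s E.hs) z S.zm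
  · intro x hx m hm
    rw [S.zn m hm.1, map_neg, S.zn _ (S.C.tM x hx.1 m hm.1)]
  · obtain ⟨m, hm, hm0⟩ := E.fix_ne S.C
    refine ⟨m, hm, ?_⟩
    rw [S.zn m hm.1]
    intro h1
    exact hm0 (S.C.zero_of_neg h hm.1 h1.symm)

/-- every element of the centralizer of `s` acts on the fixed space of `s` like an element of
`T'`. -/
theorem f_one [Finite X] (h : HD H ρ O e) {z s : X} (S : St H ρ O e T W' M' 2 z) (E : Se ρ T M' s)
    (hwc : ∀ c ∈ Ck ρ T M', ∀ w ∈ W', H c w = w) (hle : ⁅T, T⁆ ≤ Cs ρ T M' S.C.tM s) :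
    ∀ x ∈ Cs ρ T M' S.C.tM s, ∃ y ∈ ⁅T, T⁆, ∀ m ∈ fix ρ s M', ρ x m = ρ y m := by
  have C' := ws_Cf h S.C E hwc
  have U := ub_two h S E hwc
  set Y := Cs ρ T M' S.C.tM s with hY
  set D := Ck ρ Y (fix ρ s M') with hD
  have hDY : D ≤ Y := fun c hc => hc.1
  have hDn : (D.subgroupOf Y).Normal := ⟨fun x hx g => C'.Ck_conj g.2 hx⟩
  set π := QuotientGroup.mk' (D.subgroupOf Y) with hπ
  have hπs : Function.Surjective π := QuotientGroup.mk'_surjective _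
  have hmem : ∀ (x : X) (hx : x ∈ Y), π ⟨x, hx⟩ = 1 ↔ x ∈ D := by
    intro x hx
    exact QuotientGroup.eq_one_iff (N := D.subgroupOf Y) (⟨x, hx⟩ : Y)
  have hzY : z ∈ Y := U.hb
  have hzD : z ∉ D := by
    intro hz
    obtain ⟨m, hm, hne⟩ := U.hne
    exact hne (hz.2 m hm)
  have heq : ∀ (x : X) (hx : x ∈ Y), (∀ m ∈ fix ρ s M', ρ x m = ρ z m) →
      π ⟨x, hx⟩ = π ⟨z, hzY⟩ := by
    intro x hx hxz
    have h1 : z⁻¹ * x ∈ D := ⟨mul_mem (inv_mem hzY) hx, fun m hm => by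
      rw [ρmul, hxz m hm, ← ρmul, inv_mul_cancel, map_one, Module.End.one_apply]⟩
    have h2 := (hmem (z⁻¹ * x) (mul_mem (inv_mem hzY) hx)).2 h1
    have h3 : (⟨z⁻¹ * x, mul_mem (inv_mem hzY) hx⟩ : Y) = ⟨z, hzY⟩⁻¹ * ⟨x, hx⟩ := rfl
    rw [h3, map_mul, map_inv, inv_mul_eq_one] at h2
    exact h2.symm
  obtain ⟨a, ha, b, hb, hab⟩ : ∃ a ∈ ⁅T, T⁆, ∃ b ∈ ⁅T, T⁆, ⁅a, b⁆ ∉ D := by
    by_contra hcon
    push Not at hcon
    apply hzD
    have h1 : ⁅⁅T, T⁆, ⁅T, T⁆⁆ ≤ D := by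
      rw [commutator_le]
      exact hcon
    exact h1 S.zm
  have key := DerGrp.q8 (G := Y ⧸ D.subgroupOf Y) (z := π ⟨z, hzY⟩) (by
      intro x
      obtain ⟨⟨y, hy⟩, rfl⟩ := hπs x
      have h1 : ⁅y, z⁆ ∈ D := C'.comm_mem_Ck hy hzY (fun m hm => (U.hc y hy m hm).symm)
      rw [← commutatorElement_eq_one_iff_mul_comm, ← map_commutatorElement]
      exact (hmem _ (hDY h1)).2 h1) (by
      intro x
      obtain ⟨⟨y, hy⟩, rfl⟩ := hπs x
      rcases U.sq h C' hy with h1 | h1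
      · left
        rw [← map_mul]
        exact (hmem (y * y) (mul_mem hy hy)).2 ⟨mul_mem hy hy, fun m hm => by rw [ρmul, h1 m hm]⟩
      · right
        rw [← map_mul]
        exact heq (y * y) (mul_mem hy hy) (fun m hm => by rw [ρmul, h1 m hm])) (by
      intro x hx
      obtain ⟨⟨y, hy⟩, rfl⟩ := hπs x
      rw [← map_mul] at hx
      have h1 := (hmem (y * y) (mul_mem hy hy)).1 hx
      rcases U.two h C' hy (fun m hm => by rw [← ρmul]; exact h1.2 m hm) with h2 | h2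
      · left
        exact (hmem y hy).2 ⟨hy, h2⟩
      · right
        exact heq y hy h2)
    (K := (⁅T, T⁆.subgroupOf Y).map π) ⟨⟨z, hzY⟩, dser_antitone (m := 1) (n := 2) (by omega) T S.zm, rfl⟩
    (p := π ⟨a, hle ha⟩) (s := π ⟨b, hle hb⟩) ⟨⟨a, hle ha⟩, ha, rfl⟩ ⟨⟨b, hle hb⟩, hb, rfl⟩ (by
      intro h1
      apply hab
      rw [← commutatorElement_eq_one_iff_mul_comm, ← map_commutatorElement] at h1
      exact (hmem _ (comm_mem_self (hle ha) (hle hb))).1 h1)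
  intro x hx
  obtain ⟨⟨y, hyY⟩, hy, hyx⟩ := key (π ⟨x, hx⟩)
  have hy' : y ∈ ⁅T, T⁆ := hy
  refine ⟨y, hy', fun m hm => ?_⟩
  have h1 : y⁻¹ * x ∈ D := by
    rw [← hmem (y⁻¹ * x) (mul_mem (inv_mem hyY) hx)]
    have h3 : (⟨y⁻¹ * x, mul_mem (inv_mem hyY) hx⟩ : Y) = ⟨y, hyY⟩⁻¹ * ⟨x, hx⟩ := rfl
    rw [h3, map_mul, map_inv, inv_mul_eq_one]
    exact hyx
  have h2 := h1.2 m hm
  rw [ρmul] at h2
  have h3 := congrArg (ρ y) h2
  rwa [← ρmul y y⁻¹, mul_inv_cancel, map_one, Module.End.one_apply] at h3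

/-- claim (α) -/
theorem alpha (h : HD H ρ O e) {z s : X} (S : St H ρ O e T W' M' 2 z) (E : Se ρ T M' s)
    (hwc : ∀ c ∈ Ck ρ T M', ∀ w ∈ W', H c w = w) {x : X} (hx : x ∈ T)
    (hx1 : ∀ m ∈ M', ρ s m = -m → ρ x m = m) : ∀ w ∈ W', H (z * s) (H x w - w) = H x w - w := by
  have h20 : (2 : k) = 0 := CharP.cast_eq_zero k 2
  have hsT : s ∈ T := comm_le_self T E.hs
  have hzT := S.zT
  have hzsT : z * s ∈ T := mul_mem hzT hsT
  have hzs : ∀ m ∈ neg ρ s M', ρ (z * s) m = m := by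
    intro m hm
    rw [ρmul, hm.2, map_neg, S.zn m hm.1, neg_neg]
  obtain ⟨m, hm, hm0⟩ := E.neg_ne S.C
  obtain ⟨n, hn, hsn, hmn⟩ := S.C.pair_neg h hsT E.s2 hm.1 hm.2 hm0
  have hbot : (W'.map (H x - 1)).map (H (z * s) - 1) = ⊥ := by
    refine h.key' (M' := neg ρ s M') (b := s) ?_ (fun m hm => hm.2) ?_
      ⟨m, hm, n, ⟨hn, hsn⟩, hmn⟩
    · rintro m hm _ ⟨_, ⟨w, hw, rfl⟩, rfl⟩
      refine ⟨_, ⟨O m w, S.C.io m hm.1 w hw, rfl⟩, ?_⟩
      simp only [LinearMap.sub_apply, Module.End.one_apply, map_sub]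
      rw [h.commute (S.C.two hx) (hx1 m hm.1 hm.2), h.commute (S.C.two hzsT) (hzs m hm),
        h.commute (S.C.two hzsT) (hzs m hm)]
    · rintro _ ⟨_, ⟨w, hw, rfl⟩, rfl⟩
      have hw₁ : H x w - w ∈ W' := sub_mem (S.C.tW x hx w hw) hw
      have h1 : H z (H s (H x w - w) - (H x w - w)) = H s (H x w - w) - (H x w - w) :=
        (mem_Zn_zero H).1 ((mem_Zn_succ H).1 ((mem_Zn_succ H).1 (S.Z hw) x hx) s E.hs) z S.zm
      simp only [LinearMap.sub_apply, Module.End.one_apply]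
      set u := H x w - w with hu
      have hzsc : H z (H s u) = H s (H z u) :=
        Cs_comm S.C hsT hwc z (S.z_mem_Cs hsT) u hw₁
      have hss : H s (H s u) = u := by
        rw [← Hmul]
        exact hwc _ ⟨mul_mem hsT hsT, fun m hm => by rw [ρmul, E.s2 m hm]⟩ u hw₁
      have htwo : u + u = 0 := by rw [← two_smul k, h20, zero_smul]
      rw [map_sub, sub_eq_iff_eq_add] at h1
      -- `H z (H s u) = H s u - u + H z u`
      have h3 : H (z * s) u - u = H z u + H s u := by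
        rw [Hmul, h1]
        have : H s u - u + H z u - u = H z u + H s u - (u + u) := by abel
        rw [this, htwo, sub_zero]
      rw [h3, map_add, hss, ← hzsc, h1]
      have : H s u - u + H z u + u = H z u + H s u := by abel
      exact this
  intro w hw
  have h2 : (H (z * s) - 1) ((H x - 1) w) ∈ (W'.map (H x - 1)).map (H (z * s) - 1) :=
    ⟨_, ⟨w, hw, rfl⟩, rfl⟩
  rw [hbot, Submodule.mem_bot] at h2
  simp only [LinearMap.sub_apply, Module.End.one_apply] at h2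
  exact sub_eq_zero.1 h2

omit hk2 in
theorem Se.mul_z {z s : X} (S : St H ρ O e T W' M' 2 z) (E : Se ρ T M' s) :
    Se ρ T M' (z * s) := by
  have hsT : s ∈ T := comm_le_self T E.hs
  have hzs : ∀ m ∈ M', ρ (z * s) m = -ρ s m := fun m hm => by
    rw [ρmul, S.zn _ (S.C.tM s hsT m hm)]
  refine ⟨mul_mem (dser_antitone (m := 1) (n := 2) (by omega) T S.zm) E.hs, ?_, ?_, ?_⟩
  · intro m hm
    rw [hzs m hm, map_neg, hzs _ (S.C.tM s hsT m hm), E.s2 m hm, neg_neg]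
  · obtain ⟨m, hm, hne⟩ := E.ne2
    refine ⟨m, hm, ?_⟩
    rw [hzs m hm]
    intro h1
    exact hne (neg_eq_iff_eq_neg.1 h1)
  · obtain ⟨m, hm, hne⟩ := E.ne1
    refine ⟨m, hm, ?_⟩
    rw [hzs m hm]
    intro h1
    exact hne (neg_injective h1)

/-- every element of `T` commuting with `s`: contradiction -/
theorem core_central [Finite X] (h : HD H ρ O e) {z s : X} (S : St H ρ O e T W' M' 2 z)
    (E : Se ρ T M' s) (hwc : ∀ c ∈ Ck ρ T M', ∀ w ∈ W', H c w = w)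
    (hall : ∀ g ∈ T, ∀ m ∈ M', ρ s (ρ g m) = ρ g (ρ s m)) : False := by
  have h2f : Fact (Nat.Prime 2) := ⟨Nat.prime_two⟩
  have hY : ∀ g ∈ T, g ∈ Cs ρ T M' S.C.tM s := fun g hg => ⟨hg, hall g hg⟩
  obtain ⟨m, hm, hm0⟩ := E.fix_ne S.C
  obtain ⟨x, hx, hxJ⟩ := exists_not_mem (K := T) (J := Ck ρ T (fix ρ s M')) S.C.p2 (by
    intro h1
    have h2 := (h1 S.zT).2 m hm
    rw [S.zn m hm.1] at h2
    exact hm0 (S.C.zero_of_neg h hm.1 h2.symm))
  obtain ⟨y, hy, hxy⟩ := f_one h S E hwc (fun g hg => hY g (comm_le_self T hg)) x (hY x hx)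
  apply hxJ y⁻¹ (inv_mem hy)
  refine ⟨mul_mem (inv_mem (comm_le_self T hy)) hx, fun m hm => ?_⟩
  rw [ρmul, hxy m hm, ← ρmul, inv_mul_cancel, map_one, Module.End.one_apply]

/-- the element `x` trivial on the negative space of `s` and of order four on the fixed space -/
theorem exists_x [Finite X] (h : HD H ρ O e) {z s t : X} (S : St H ρ O e T W' M' 2 z)
    (E : Se ρ T M' s) (hwc : ∀ c ∈ Ck ρ T M', ∀ w ∈ W', H c w = w)
    (hsg : ∀ g ∈ T, (∀ m ∈ M', ρ s (ρ g m) = ρ g (ρ s m)) ∨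
      (∀ m ∈ M', ρ s (ρ g m) = -ρ g (ρ s m))) (ht : t ∈ T)
    (hts : ∀ m ∈ M', ρ s (ρ t m) = -ρ t (ρ s m)) :
    ∃ x ∈ Cs ρ T M' S.C.tM s, (∀ m ∈ M', ρ s m = -m → ρ x m = m) ∧
      (∃ m ∈ fix ρ s M', ρ x m ≠ m) ∧ (∃ m ∈ fix ρ s M', ρ x m ≠ -m) := by
  have h2f : Fact (Nat.Prime 2) := ⟨Nat.prime_two⟩
  by_contra hcon
  push Not at hcon
  have hsT : s ∈ T := comm_le_self T E.hs
  have hle : ⁅T, T⁆ ≤ Cs ρ T M' S.C.tM s := sgn_comm S.C hsg
  have E' := E.mul_z S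
  have hzs : ∀ m ∈ M', ρ (z * s) m = -ρ s m := fun m hm => by
    rw [ρmul, S.zn _ (S.C.tM s hsT m hm)]
  have hCs' : ∀ g, g ∈ Cs ρ T M' S.C.tM s → g ∈ Cs ρ T M' S.C.tM (z * s) := by
    intro g hg
    refine ⟨hg.1, fun m hm => ?_⟩
    rw [hzs _ (S.C.tM g hg.1 m hm), hzs m hm, map_neg, hg.2 m hm]
  have hf' := f_one h S E' hwc (fun g hg => hCs' g (hle hg))
  obtain ⟨m₀, hm₀, hm₀0⟩ := (Submodule.ne_bot_iff _).1 S.ne
  -- (a)
  have ha : ∀ y ∈ Cs ρ T M' S.C.tM s, ∃ a ∈ ⁅T, T⁆, a * y ∈ Ck ρ T M' := by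
    intro y hy
    obtain ⟨y₁, hy₁, hyy⟩ := hf' y (hCs' y hy)
    have hy₁T : y₁ ∈ T := comm_le_self T hy₁
    have hg : y₁⁻¹ * y ∈ Cs ρ T M' S.C.tM s := mul_mem (inv_mem (hle hy₁)) hy
    have hg1 : ∀ m ∈ M', ρ s m = -m → ρ (y₁⁻¹ * y) m = m := by
      intro m hm hsm
      rw [ρmul, hyy m ⟨hm, by rw [hzs m hm, hsm, neg_neg]⟩, ← ρmul, inv_mul_cancel, map_one,
        Module.End.one_apply]
    by_cases hg2 : ∀ m ∈ fix ρ s M', ρ (y₁⁻¹ * y) m = m
    · refine ⟨y₁⁻¹, inv_mem hy₁, mul_mem (inv_mem hy₁T) hy.1, ?_⟩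
      exact S.C.triv_of_split h hsT (mul_mem (inv_mem hy₁T) hy.1) E.s2
        (fun m hm hsm => hg2 m ⟨hm, hsm⟩) hg1
    · push Not at hg2
      have hg3 := hcon _ hg hg1 hg2
      refine ⟨(z * s) * y₁⁻¹, mul_mem E'.hs (inv_mem hy₁), ?_⟩
      rw [mul_assoc]
      have hzsT : z * s ∈ T := mul_mem S.zT hsT
      refine ⟨mul_mem hzsT hg.1, ?_⟩
      apply S.C.triv_of_split h hsT (mul_mem hzsT hg.1) E.s2
      · intro m hm hsm
        rw [ρmul, hg3 m ⟨hm, hsm⟩, map_neg, hzs m hm, hsm, neg_neg]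
      · intro m hm hsm
        rw [ρmul, hg1 m hm hsm, hzs m hm, hsm, neg_neg]
  -- (b)
  obtain ⟨x, hx, hxJ⟩ := exists_not_mem (K := T) (J := Cs ρ T M' S.C.tM t) S.C.p2 (by
    intro h1
    have h2 := (h1 hsT).2 m₀ hm₀
    rw [hts m₀ hm₀] at h2
    have h3 := S.C.zero_of_neg h (S.C.tM t ht _ (S.C.tM s hsT m₀ hm₀)) h2
    apply hm₀0
    have h4 := congrArg (ρ t⁻¹) h3
    rw [← ρmul, inv_mul_cancel, map_one, Module.End.one_apply, map_zero] at h4
    rw [← E.s2 m₀ hm₀, h4, map_zero])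
  have hCkJ : ∀ c ∈ Ck ρ T M', c ∈ Cs ρ T M' S.C.tM t := fun c hc =>
    ⟨hc.1, fun m hm => by rw [hc.2 m hm, hc.2 _ (S.C.tM t ht m hm)]⟩
  have htJ : t ∈ Cs ρ T M' S.C.tM t := ⟨ht, fun m hm => rfl⟩
  rcases hsg x hx with h1 | h1
  · obtain ⟨a, ha, hax⟩ := ha x ⟨hx, h1⟩
    exact hxJ a ha (hCkJ _ hax)
  · have hy : t⁻¹ * x ∈ Cs ρ T M' S.C.tM s := by
      refine ⟨mul_mem (inv_mem ht) hx, fun m hm => ?_⟩
      rw [ρmul, ρmul]
      have h2 := hts _ (S.C.tM _ (inv_mem ht) _ (S.C.tM x hx m hm))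
      rw [← ρmul t t⁻¹, mul_inv_cancel, map_one, Module.End.one_apply, h1 m hm] at h2
      have h3 := neg_injective h2
      rw [h3, ← ρmul t⁻¹ t, inv_mul_cancel, map_one, Module.End.one_apply]
    obtain ⟨a, ha, hax⟩ := ha _ hy
    apply hxJ (t * a * t⁻¹) (conj_comm_mem ha ht)
    have e1 : t * a * t⁻¹ * x = t * (a * (t⁻¹ * x)) := by group
    rw [e1]
    exact mul_mem htJ (hCkJ _ hax)

theorem core_two [Finite X] (h : HD H ρ O e) {z : X} (S : St H ρ O e T W' M' 2 z) : False := by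
  have h20 : (2 : k) = 0 := CharP.cast_eq_zero k 2
  obtain ⟨s, -, E, hsg⟩ := exists_s h S
  have hwc := wc_two h S E
  by_cases hall : ∀ g ∈ T, ∀ m ∈ M', ρ s (ρ g m) = ρ g (ρ s m)
  · exact core_central h S E hwc hall
  push Not at hall
  obtain ⟨t, ht, m₁, hm₁, hne₁⟩ := hall
  have hts : ∀ m ∈ M', ρ s (ρ t m) = -ρ t (ρ s m) :=
    (hsg t ht).resolve_left fun h1 => hne₁ (h1 m₁ hm₁)
  obtain ⟨x, hxY, hx1, hx2, hx3⟩ := exists_x h S E hwc hsg ht hts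
  have hsT : s ∈ T := comm_le_self T E.hs
  have hxT : x ∈ T := hxY.1
  have hle : ⁅T, T⁆ ≤ Cs ρ T M' S.C.tM s := sgn_comm S.C hsg
  have C' := ws_Cf h S.C E hwc
  have U := ub_two h S E hwc
  -- `x ^ 2 = -1` on the fixed space
  have hxx : ∀ m ∈ fix ρ s M', ρ x (ρ x m) = -m := by
    rcases U.sq h C' hxY with h1 | h1
    · exfalso
      rcases U.two h C' hxY h1 with h2 | h2
      · obtain ⟨m, hm, hne⟩ := hx2
        exact hne (h2 m hm)
      · obtain ⟨m, hm, hne⟩ := hx3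
        exact hne (by rw [h2 m hm, S.zn m hm.1])
    · intro m hm
      rw [h1 m hm, S.zn m hm.1]
  obtain ⟨y, hy, hxy⟩ := f_one h S E hwc hle x hxY
  have hyT : y ∈ T := comm_le_self T hy
  have hyY : y ∈ Cs ρ T M' S.C.tM s := hle hy
  have E' := E.mul_z S
  have hα := alpha h S E hwc hxT hx1
  have hzs : ∀ m ∈ M', ρ (z * s) m = -ρ s m := fun m hm => by
    rw [ρmul, S.zn _ (S.C.tM s hsT m hm)]
  set x' : X := y * x⁻¹ with hx'
  have hx'T : x' ∈ T := mul_mem hyT (inv_mem hxT)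
  have hβ := alpha h S E' hwc hx'T (by
    intro m hm hm1
    have hsm : ρ s m = m := by
      rw [hzs m hm] at hm1
      exact neg_injective hm1
    have hm' : ρ x⁻¹ m ∈ fix ρ s M' := C'.tM _ (inv_mem hxY) m ⟨hm, hsm⟩
    rw [hx', ρmul, ← hxy _ hm', ← ρmul, mul_inv_cancel, map_one, Module.End.one_apply])
  -- `H (z z s) = H s`
  have hzzs : ∀ w ∈ W', H (z * (z * s)) w = H s w := by
    intro w hw
    rw [← mul_assoc, Hmul]
    exact hwc _ ⟨mul_mem S.zT S.zT, fun m hm => by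
      rw [ρmul, S.zn m hm, map_neg, S.zn m hm, neg_neg]⟩ _ (S.C.tW s hsT w hw)
  -- `x` and `y` commute on `W'`
  have hyx : ∀ w ∈ W', H y (H x w) = H x (H y w) := by
    have h1 : ⁅y, x⁆ ∈ Ck ρ T M' := by
      refine ⟨comm_mem_self hyT hxT, ?_⟩
      apply S.C.triv_of_split h hsT (comm_mem_self hyT hxT) E.s2
      · intro m hm hsm
        have hmf : m ∈ fix ρ s M' := ⟨hm, hsm⟩
        refine C'.comm_one hyY hxY ?_ m hmf
        intro m hm
        rw [← hxy _ (C'.tM x hxY m hm), ← hxy m hm]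
      · intro m hm hsm
        have Cn := S.C.restrict_neg h hsT E.s2 (T₁ := Cs ρ T M' S.C.tM s) (fun g hg => hg.1)
          (fun g hg m hm => hg.2 m hm)
        refine Cn.comm_one hyY hxY ?_ m ⟨hm, hsm⟩
        intro m hm
        have hym := Cn.tM y hyY m hm
        rw [hx1 m hm.1 hm.2, hx1 _ hym.1 hym.2]
    intro w hw
    have h2 : y * x = ⁅y, x⁆ * (x * y) := by rw [commutatorElement_def]; group
    rw [← Hmul, h2, Hmul, hwc _ h1 _ (S.C.tW _ (mul_mem hxT hyT) w hw), Hmul]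
  have hiii : ∀ w ∈ W', H s (H x (H x w - w) - (H x w - w)) = H x (H x w - w) - (H x w - w) := by
    intro w hw
    have hw₁ : H x w - w ∈ W' := sub_mem (S.C.tW x hxT w hw) hw
    have hγ : H z (H y (H x w - w) - (H x w - w)) = H y (H x w - w) - (H x w - w) :=
      (mem_Zn_zero H).1 ((mem_Zn_succ H).1 ((mem_Zn_succ H).1 (S.Z hw) x hxT) y hy) z S.zm
    have h1 : H y (H x w - w) - (H x w - w) = H x (H y w - w) - (H y w - w) := by
      rw [map_sub, map_sub, hyx w hw]; abel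
    have h2 : H (z * s) (H y (H x w - w) - (H x w - w)) = H y (H x w - w) - (H x w - w) := by
      rw [h1]
      exact hα _ (sub_mem (S.C.tW y hyT w hw) hw)
    have hv : H y (H x w - w) - (H x w - w) ∈ W' := sub_mem (S.C.tW y hyT _ hw₁) hw₁
    have hi : H s (H y (H x w - w) - (H x w - w)) = H y (H x w - w) - (H x w - w) := by
      rw [← hzzs _ hv, Hmul, h2, hγ]
    have hii : H s (H x' (H x (H x w - w)) - H x (H x w - w)) =
        H x' (H x (H x w - w)) - H x (H x w - w) := by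
      have h3 := hβ _ (S.C.tW x hxT _ hw₁)
      rwa [hzzs _ (sub_mem (S.C.tW x' hx'T _ (S.C.tW x hxT _ hw₁)) (S.C.tW x hxT _ hw₁))] at h3
    have h4 : H x' (H x (H x w - w)) = H y (H x w - w) := by
      rw [← Hmul, hx', inv_mul_cancel_right]
    rw [h4] at hii
    have h5 : H x (H x w - w) - (H x w - w) = (H y (H x w - w) - (H x w - w)) -
        (H y (H x w - w) - H x (H x w - w)) := by abel
    rw [h5, map_sub, hi, hii]
  obtain ⟨m, hm, hm0⟩ := E.neg_ne S.C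
  obtain ⟨n, hn, hsn, hmn⟩ := S.C.pair_neg h hsT E.s2 hm.1 hm.2 hm0
  have hbot : (W'.map (H x - 1)).map (H x - 1) = ⊥ := by
    refine h.key' (M' := neg ρ s M') (b := s) ?_ (fun m hm => hm.2) ?_
      ⟨m, hm, n, ⟨hn, hsn⟩, hmn⟩
    · rintro m hm _ ⟨_, ⟨w, hw, rfl⟩, rfl⟩
      refine ⟨_, ⟨O m w, S.C.io m hm.1 w hw, rfl⟩, ?_⟩
      simp only [LinearMap.sub_apply, Module.End.one_apply, map_sub]
      rw [h.commute (S.C.two hxT) (hx1 m hm.1 hm.2), h.commute (S.C.two hxT) (hx1 m hm.1 hm.2)]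
    · rintro _ ⟨_, ⟨w, hw, rfl⟩, rfl⟩
      simp only [LinearMap.sub_apply, Module.End.one_apply]
      exact hiii w hw
  have hxx1 : ∀ w ∈ W', H (x * x) w = w := by
    intro w hw
    have h2 : (H x - 1) ((H x - 1) w) ∈ (W'.map (H x - 1)).map (H x - 1) :=
      ⟨_, ⟨w, hw, rfl⟩, rfl⟩
    rw [hbot, Submodule.mem_bot] at h2
    simp only [LinearMap.sub_apply, Module.End.one_apply, map_sub] at h2
    have htwo : ∀ u : W, u + u = 0 := fun u => by rw [← two_smul k, h20, zero_smul]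
    rw [Hmul]
    have h3 : H x (H x w) - w = (H x (H x w) - H x w - (H x w - w)) + (H x w + H x w) - (w + w) := by
      abel
    rw [← sub_eq_zero, h3, h2, htwo (H x w), htwo w, add_zero, sub_zero]
  have h9 := h.triv S.C.io S.C.ne S.C.nd (S.C.tM _ (mul_mem hxT hxT)) hxx1
  obtain ⟨m, hm, hm0⟩ := E.fix_ne S.C
  have h10 := h9 m hm.1
  rw [ρmul, hxx m hm] at h10
  exact hm0 (S.C.zero_of_neg h hm.1 h10.symm)

end

end Cfsg.Agent.Lib.DerHD
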