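import Cfsg.Agent.Lib.DerMain

/-!
The `2`-length is at most the derived length of the Sylow `2`-subgroups (helper59).
-/

set_option autoImplicit false

namespace Cfsg.Agent.Lib.DerMain

open Module Subgroup Cfsg Cfsg.Agent.Lib.PLength Cfsg.Agent.Lib.BryMain Cfsg.Agent.Lib.DerZn
open scoped commutatorElement

universe u

theorem dser_eq_map {G : Type*} [Group G] (S : Subgroup G) :
    ∀ n : ℕ, dser n S = (derivedSeries S n).map S.subtype
  | 0 => by
    change S = (⊤ : Subgroup S).map S.subtype
    rw [← MonoidHom.range_eq_map, range_subtype]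
  | n + 1 => by
    rw [dser_succ', dser_eq_map S n, derivedSeries_succ, map_commutator]

/-- the core case. -/
theorem two_length_core_der {G : Type u} [Group G] [Finite G] (hsol : Group.IsSolvable G)
    (hO : pPrimeCore 2 G = ⊥) {d : ℕ}
    (hd : ∀ S : Subgroup G, IsPGroup 2 S → dser (d + 1) S = ⊥) : PLengthLE 2 (d + 1) G := by
  have h2f : Fact (Nat.Prime 2) := ⟨Nat.prime_two⟩
  apply pLengthLE_succ_of_isPGroup (pCore 2 G) (Cfsg.Agent.Lib.H32Cores.pCore_isPGroup 2)
  apply mainD d
  · have := hsol
    infer_instance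
  · exact Cores.pCore_quotient_pCore 2 G
  · obtain ⟨V, i1, i2, i3, ⟨D⟩⟩ := FratRep.exists_data (p := 2) (pCore 2 G) inferInstance
      (Cfsg.Agent.Lib.H32Cores.pCore_isPGroup 2)
    obtain ⟨σ, hσ, hσρ⟩ := D.exists_quot isPSolvable_of_isSolvable hO
    have hinj : Function.Injective (Module.End.baseChangeHom (ZMod 2) KK V) :=
      LinearMap.baseChangeHom_injective (ZMod 2) V KK
    set B := Module.End.baseChangeHom (ZMod 2) KK V with hB
    have hfd : FiniteDimensional (ZMod 2) V := Module.Finite.of_finite
    refine ⟨TensorProduct (ZMod 2) KK V, inferInstance, inferInstance, inferInstance,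
      B.toMonoidHom.comp σ, ?_, ?_⟩
    · intro x hx
      apply hσ
      rw [map_one]
      apply hinj
      rw [map_one]
      exact hx
    · intro S hS v
      obtain ⟨T, hT2, hST⟩ := lift_twosub (QuotientGroup.mk' (pCore 2 G))
        (QuotientGroup.mk'_surjective _) hS
      have hT2' : IsPGroup 2 (T ⊔ pCore 2 G : Subgroup G) :=
        IsPGroup.to_sup_of_normal_right hT2 (Cfsg.Agent.Lib.H32Cores.pCore_isPGroup 2)
      refine Zn_anti _ d (hST.trans (map_mono (le_sup_left : T ≤ T ⊔ pCore 2 G))) ?_
      rw [← Zn_comap]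
      refine Zn_tensor (D.ρ : G →* Module.End (ZMod 2) V) _ ?_ ?_ v
      · intro g m
        rw [← hσρ]
        rfl
      · have key : ∀ m i, i + m = d → ∀ (a : pCore 2 G), (a : G) ∈ dser i (T ⊔ pCore 2 G) →
            D.π a ∈ Zn D.ρ m (dser i (T ⊔ pCore 2 G)) := by
          have hstep : ∀ (a : pCore 2 G) (x : G), ∃ hd : ⁅x, (a : G)⁆ ∈ pCore 2 G,
              D.ρ x (D.π a) - D.π a = D.π ⟨⁅x, (a : G)⁆, hd⟩ := by
            intro a x
            have hd : ⁅x, (a : G)⁆ ∈ pCore 2 G := mul_mem (D.conj_mem x a) (inv_mem a.2)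
            refine ⟨hd, ?_⟩
            have e : (⟨⁅x, (a : G)⁆, hd⟩ : pCore 2 G) = ⟨_, D.conj_mem x a⟩ * a⁻¹ := rfl
            rw [e, D.map_mul, D.map_inv, D.apply, sub_eq_add_neg]
          intro m
          induction m with
          | zero =>
            intro i hi a ha
            rw [mem_Zn_zero]
            intro x hx
            obtain ⟨hd', h1⟩ := hstep a x
            rw [← sub_eq_zero]
            refine h1.trans ?_
            have h2 : ⁅x, (a : G)⁆ ∈ dser (d + 1) (T ⊔ pCore 2 G) := by
              have hid : i = d := by omega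
              rw [dser_succ', ← hid]
              exact commutator_mem_commutator hx ha
            rw [hd _ hT2', mem_bot] at h2
            have h3 : (⟨⁅x, (a : G)⁆, hd'⟩ : pCore 2 G) = 1 := Subtype.ext h2
            rw [h3, D.map_one]
          | succ m ih =>
            intro i hi a ha
            rw [mem_Zn_succ]
            intro x hx
            obtain ⟨hd', h1⟩ := hstep a x
            rw [← dser_succ', h1]
            exact ih (i + 1) (by omega) _ (by
              rw [dser_succ']; exact commutator_mem_commutator hx ha)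
        intro m
        obtain ⟨a, rfl⟩ := D.surj m
        exact key d 0 (Nat.zero_add d) a (mem_sup_right a.2)

theorem two_length_der {G : Type u} [Group G] [Finite G] (hsol : Group.IsSolvable G) (d : ℕ)
    (hd : ∀ S : Subgroup G, IsPGroup 2 S → dser d S = ⊥) : PLengthLE 2 d G := by
  have h2f : Fact (Nat.Prime 2) := ⟨Nat.prime_two⟩
  cases d with
  | zero =>
    rw [pLengthLE_zero_iff, Nat.coprime_comm, Nat.Prime.coprime_iff_not_dvd Nat.prime_two]
    intro hdvd
    obtain ⟨x, hx⟩ := exists_prime_orderOf_dvd_card' 2 hdvd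
    have h2x : IsPGroup 2 (zpowers x) := BryFin.isPGroup_zpowers (n := 1) (by
      rw [pow_one, ← hx, pow_orderOf_eq_one])
    have h1 : zpowers x = ⊥ := hd _ h2x
    have h3 : x ∈ zpowers x := mem_zpowers x
    rw [h1, mem_bot] at h3
    rw [h3, orderOf_one] at hx
    exact absurd hx (by norm_num)
  | succ d =>
    apply pLengthLE_of_coprime (pPrimeCore 2 G) (Cfsg.Agent.Lib.H32Cores.pPrimeCore_coprime 2)
    apply two_length_core_der
    · have := hsol
      infer_instance
    · exact Cfsg.Agent.Lib.Cores.pPrimeCore_quotient_pPrimeCore 2 G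
    · intro S hS
      obtain ⟨T, hT2, hST⟩ := lift_twosub (QuotientGroup.mk' (pPrimeCore 2 G))
        (QuotientGroup.mk'_surjective _) hS
      rw [eq_bot_iff]
      refine (dser_mono (d + 1) hST).trans ?_
      rw [← dser_map, hd T hT2, Subgroup.map_bot]

/-- the `2`-length is at most the derived length of the Sylow `2`-subgroups. -/
theorem two_length_sylow_der {G : Type u} [Group G] [Finite G] (hsol : Group.IsSolvable G) (d : ℕ)
    (hd : ∀ P : Sylow 2 G, derivedSeries (P : Subgroup G) d = ⊥) : PLengthLE 2 d G := by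
  have h2f : Fact (Nat.Prime 2) := ⟨Nat.prime_two⟩
  refine two_length_der hsol d fun S hS => ?_
  obtain ⟨P, hP⟩ := hS.exists_le_sylow
  rw [eq_bot_iff]
  refine (dser_mono d hP).trans ?_
  rw [dser_eq_map, hd P, Subgroup.map_bot]

end Cfsg.Agent.Lib.DerMain
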