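import Cfsg.Agent.Lib.WtGroup
import Cfsg.Agent.Lib.HBBasic
import Cfsg.Agent.Lib.Ward

/-!
The iterated derived subgroups and the iterated commutator condition
`[V, S, S', …, S^(n)] = 0`, and weights (helper59).
-/

set_option autoImplicit false

namespace Cfsg.Agent.Lib.DerZn

open Module Subgroup Cfsg Cfsg.Agent.Lib.WtGroup
open scoped commutatorElement

universe u v w

/-- iterated derived subgroups -/
def dser {Γ : Type u} [Group Γ] : ℕ → Subgroup Γ → Subgroup Γ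
  | 0, S => S
  | n + 1, S => dser n ⁅S, S⁆

section

variable {Γ : Type u} [Group Γ] {k : Type v} {W : Type w} [Field k] [AddCommGroup W] [Module k W]

theorem comm_le_self (S : Subgroup Γ) : ⁅S, S⁆ ≤ S := by
  rw [commutator_le]
  intro a ha b hb
  rw [commutatorElement_def]
  exact mul_mem (mul_mem (mul_mem ha hb) (inv_mem ha)) (inv_mem hb)

theorem dser_le : ∀ (n : ℕ) (S : Subgroup Γ), dser n S ≤ S
  | 0, _ => le_rfl
  | n + 1, S => (dser_le n ⁅S, S⁆).trans (comm_le_self S)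

theorem dser_mono : ∀ (n : ℕ) {S T : Subgroup Γ}, S ≤ T → dser n S ≤ dser n T
  | 0, _, _, h => h
  | n + 1, _, _, h => dser_mono n (commutator_mono h h)

theorem dser_add : ∀ (m n : ℕ) (S : Subgroup Γ), dser n (dser m S) = dser (m + n) S
  | 0, n, S => by rw [Nat.zero_add]; rfl
  | m + 1, n, S => by
    rw [Nat.add_right_comm]
    exact dser_add m n ⁅S, S⁆

theorem dser_succ' (n : ℕ) (S : Subgroup Γ) : dser (n + 1) S = ⁅dser n S, dser n S⁆ := by
  rw [← dser_add n 1 S]; rfl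

theorem dser_antitone {m n : ℕ} (h : m ≤ n) (S : Subgroup Γ) : dser n S ≤ dser m S := by
  obtain ⟨d, rfl⟩ := Nat.exists_eq_add_of_le h
  rw [← dser_add]
  exact dser_le _ _

theorem dser_map {Δ : Type*} [Group Δ] (f : Γ →* Δ) : ∀ (n : ℕ) (S : Subgroup Γ),
    (dser n S).map f = dser n (S.map f)
  | 0, _ => rfl
  | n + 1, S => by
    change (dser n ⁅S, S⁆).map f = dser n ⁅S.map f, S.map f⁆
    rw [dser_map f n, map_commutator]

/-- `[V, S, S', …, S^(n)] = 0`, elementwise. -/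
def Zn (H : Γ →* Module.End k W) : ℕ → Subgroup Γ → Submodule k W
  | 0, S => ⨅ x : S, LinearMap.ker (H (x : Γ) - 1)
  | n + 1, S => ⨅ x : S, (Zn H n ⁅S, S⁆).comap (H (x : Γ) - 1)

variable (H : Γ →* Module.End k W)

theorem mem_Zn_zero {S : Subgroup Γ} {v : W} : v ∈ Zn H 0 S ↔ ∀ x ∈ S, H x v = v := by
  simp only [Zn, Submodule.mem_iInf, LinearMap.mem_ker, LinearMap.sub_apply,
    Module.End.one_apply, sub_eq_zero, Subtype.forall]

theorem mem_Zn_succ {n : ℕ} {S : Subgroup Γ} {v : W} :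
    v ∈ Zn H (n + 1) S ↔ ∀ x ∈ S, H x v - v ∈ Zn H n ⁅S, S⁆ := by
  simp only [Zn, Submodule.mem_iInf, Submodule.mem_comap, LinearMap.sub_apply,
    Module.End.one_apply, Subtype.forall]

theorem Zn_anti : ∀ (n : ℕ) {S T : Subgroup Γ}, S ≤ T → Zn H n T ≤ Zn H n S
  | 0, _, _, h => fun v hv => (mem_Zn_zero H).2 fun x hx => (mem_Zn_zero H).1 hv x (h hx)
  | n + 1, _, _, h => fun v hv => (mem_Zn_succ H).2 fun x hx =>
      Zn_anti n (commutator_mono h h) ((mem_Zn_succ H).1 hv x (h hx))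

theorem Zn_comm : ∀ (n : ℕ) {S : Subgroup Γ} (f : Module.End k W)
    (_ : ∀ x ∈ S, ∀ v, H x (f v) = f (H x v)) {v : W} (_ : v ∈ Zn H n S), f v ∈ Zn H n S
  | 0, _, f, hf, _, hv => (mem_Zn_zero H).2 fun x hx => by
      rw [hf x hx, (mem_Zn_zero H).1 hv x hx]
  | n + 1, S, f, hf, _, hv => (mem_Zn_succ H).2 fun x hx => by
      rw [hf x hx, ← map_sub]
      exact Zn_comm n f (fun y hy => hf y (comm_le_self S hy)) ((mem_Zn_succ H).1 hv x hx)

theorem Zn_comap {Δ : Type*} [Group Δ] (f : Δ →* Γ) : ∀ (n : ℕ) (S : Subgroup Δ) (v : W),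
    v ∈ Zn (H.comp f) n S ↔ v ∈ Zn H n (S.map f)
  | 0, S, v => by
    rw [mem_Zn_zero, mem_Zn_zero]
    constructor
    · rintro h _ ⟨x, hx, rfl⟩
      exact h x hx
    · intro h x hx
      exact h _ ⟨x, hx, rfl⟩
  | n + 1, S, v => by
    rw [mem_Zn_succ, mem_Zn_succ]
    constructor
    · rintro h _ ⟨x, hx, rfl⟩
      rw [← map_commutator, ← Zn_comap f n]
      exact h x hx
    · intro h x hx
      rw [Zn_comap f n, map_commutator]
      exact h _ ⟨x, hx, rfl⟩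

end

/-- a proper subgroup of a finite `p`-group times the commutator subgroup is proper -/
theorem exists_not_mem {Γ : Type u} [Group Γ] [Finite Γ] {p : ℕ} [hp : Fact p.Prime]
    {K J : Subgroup Γ} (hK : IsPGroup p K) (hKJ : ¬ K ≤ J) :
    ∃ s ∈ K, ∀ k ∈ ⁅K, K⁆, k * s ∉ J := by
  by_contra hcon
  push Not at hcon
  apply hKJ
  have h1 : J.subgroupOf K ⊔ frattini K = ⊤ := by
    rw [eq_top_iff]
    rintro ⟨s, hs⟩ -
    obtain ⟨c, hc, hcs⟩ := hcon s hs
    have hcK : c ∈ K := comm_le_self K hc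
    have h2 : (⟨c, hcK⟩ : K) ∈ frattini K := by
      apply HBBasic.commutator_le_frattini hK
      have h3 : (⁅(⊤ : Subgroup K), (⊤ : Subgroup K)⁆ : Subgroup K).map K.subtype = ⁅K, K⁆ := by
        rw [map_commutator, ← MonoidHom.range_eq_map, range_subtype]
      rw [← h3] at hc
      obtain ⟨c', hc', he⟩ := hc
      have h4 : c' = ⟨c, hcK⟩ := Subtype.ext he
      rw [← h4]
      exact hc'
    have h3 : (⟨s, hs⟩ : K) = ⟨c, hcK⟩⁻¹ * ⟨c * s, mul_mem hcK hs⟩ := by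
      apply Subtype.ext
      change s = c⁻¹ * (c * s)
      group
    rw [h3]
    exact mul_mem (mem_sup_right (inv_mem h2)) (mem_sup_left hcs)
  have h2 := frattini_nongenerating h1
  rw [Subgroup.subgroupOf_eq_top] at h2
  exact h2

section Proj

variable {Γ : Type u} [Group Γ] {k : Type v} {W : Type w} [Field k] [AddCommGroup W] [Module k W]

/-- the projection to the weight space -/
noncomputable def Pr (H : Γ →* Module.End k W) (L : Subgroup Γ) [Fintype L] (χ : Γ → k) :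
    Module.End k W :=
  (Nat.card L : k)⁻¹ • ∑ x : L, χ ((x : Γ)⁻¹) • H (x : Γ)

variable (H : Γ →* Module.End k W) {L : Subgroup Γ} [Fintype L]

theorem Pr_apply (χ : Γ → k) (v : W) :
    Pr H L χ v = (Nat.card L : k)⁻¹ • ∑ x : L, χ ((x : Γ)⁻¹) • H (x : Γ) v := by
  rw [Pr, LinearMap.smul_apply, LinearMap.sum_apply]
  rfl

theorem Pr_congr {χ χ' : Γ → k} (h : ∀ x ∈ L, χ x = χ' x) : Pr H L χ = Pr H L χ' := by
  rw [Pr, Pr]
  congr 1
  refine Finset.sum_congr rfl fun x _ => ?_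
  rw [h _ (inv_mem x.2)]

theorem Pr_self (hc : (Nat.card L : k) ≠ 0) {χ : Γ → k} {v : W} (hv : IsWt H L χ v) :
    Pr H L χ v = v := by
  by_cases hv0 : v = 0
  · rw [hv0, map_zero]
  rw [Pr_apply]
  have h1 : ∀ x : L, χ ((x : Γ)⁻¹) • H (x : Γ) v = v := by
    intro x
    rw [hv x x.2, smul_smul, mul_comm, isWt_inv hv hv0 x.2, one_smul]
  rw [Finset.sum_congr rfl fun x _ => h1 x, Finset.sum_const, Finset.card_univ,
    ← Nat.card_eq_fintype_card, ← Nat.cast_smul_eq_nsmul k, smul_smul, inv_mul_cancel₀ hc, one_smul]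

theorem Pr_conj (χ : Γ → k) {g : Γ} (hg : g ∈ normalizer (L : Set Γ)) (v : W) :
    H g (Pr H L χ v) = Pr H L (tw g χ) (H g v) := by
  rw [Pr_apply, Pr_apply, map_smul, map_sum]
  congr 1
  refine Finset.sum_bij (fun (x : L) _ => (⟨g * x * g⁻¹, (mem_normalizer_iff.1 hg x).1 x.2⟩ : L))
    (fun _ _ => Finset.mem_univ _) ?_ ?_ ?_
  · intro a _ b _ h
    have h1 := congrArg Subtype.val h
    apply Subtype.ext
    have h2 : g * (a : Γ) * g⁻¹ = g * b * g⁻¹ := h1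
    exact mul_left_cancel (mul_right_cancel h2)
  · intro b _
    refine ⟨⟨g⁻¹ * b * g, conj_mem_of_normalizer hg b.2⟩, Finset.mem_univ _, ?_⟩
    apply Subtype.ext
    change g * (g⁻¹ * b * g) * g⁻¹ = b
    group
  · intro x _
    rw [map_smul, tw_apply]
    change χ ((x : Γ)⁻¹) • H g (H x v) = χ (g⁻¹ * (g * x * g⁻¹)⁻¹ * g) • H (g * x * g⁻¹) (H g v)
    have e1 : g⁻¹ * (g * (x : Γ) * g⁻¹)⁻¹ * g = (x : Γ)⁻¹ := by group
    have e2 : H (g * x * g⁻¹) (H g v) = H g (H x v) := by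
      rw [← Module.End.mul_apply, ← Module.End.mul_apply, ← map_mul, ← map_mul]
      congr 2
      group
    rw [e1, e2]

theorem Pr_wt {χ : Γ → k} (hχ : ∀ x ∈ L, ∀ y ∈ L, χ (x * y) = χ x * χ y) (hχ1 : χ 1 = 1) (v : W) :
    IsWt H L χ (Pr H L χ v) := by
  intro y hy
  rw [Pr_apply, map_smul, smul_comm]
  congr 1
  rw [map_sum, Finset.smul_sum]
  refine Finset.sum_bij (fun (x : L) _ => (⟨y, hy⟩ * x : L)) (fun _ _ => Finset.mem_univ _) ?_ ?_ ?_
  · intro a _ b _ h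
    exact mul_left_cancel h
  · intro b _
    exact ⟨⟨y, hy⟩⁻¹ * b, Finset.mem_univ _, mul_inv_cancel_left _ _⟩
  · intro x _
    change H y (χ ((x : Γ)⁻¹) • H x v) = χ y • χ ((y * (x : Γ))⁻¹) • H (y * x) v
    rw [map_smul, smul_smul, mul_inv_rev, hχ _ (inv_mem x.2) _ (inv_mem hy)]
    have h1 : χ y * χ y⁻¹ = 1 := by rw [← hχ _ hy _ (inv_mem hy), mul_inv_cancel, hχ1]
    have h2 : χ y * (χ ((x : Γ)⁻¹) * χ y⁻¹) = χ ((x : Γ)⁻¹) := by
      rw [mul_left_comm, h1, mul_one]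
    rw [h2, map_mul, Module.End.mul_apply]

theorem Pr_ne {χ ν : Γ → k} (hχ : ∀ x ∈ L, ∀ y ∈ L, χ (x * y) = χ x * χ y) (hχ1 : χ 1 = 1) {v : W}
    (hv : IsWt H L ν v) (hne : ∃ y ∈ L, ν y ≠ χ y) : Pr H L χ v = 0 := by
  obtain ⟨y, hy, hyne⟩ := hne
  have h1 := Pr_wt H hχ hχ1 v y hy
  have h2 : H y (Pr H L χ v) = ν y • Pr H L χ v := by
    rw [Pr_conj H χ (le_normalizer hy) v, hv y hy, map_smul]
    congr 2
    apply Pr_congr
    intro x hx
    rw [tw_apply, hχ _ (mul_mem (inv_mem hy) hx) _ hy, hχ _ (inv_mem hy) _ hx, mul_right_comm,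
      ← hχ _ (inv_mem hy) _ hy, inv_mul_cancel, hχ1, one_mul]
  rw [h1] at h2
  have h3 : (ν y - χ y) • Pr H L χ v = 0 := by rw [sub_smul, h2, sub_self]
  exact (smul_eq_zero.1 h3).resolve_left (sub_ne_zero.2 hyne)

omit [Field k] [Fintype L] in
theorem tw_tw (g h : Γ) (χ : Γ → k) : tw g (tw h χ) = tw (g * h) χ := by
  funext x
  rw [tw_apply, tw_apply, tw_apply]
  congr 1
  group

/-- the main weight argument. -/
theorem wt_main [Finite Γ] {χ : Γ → k} {U₀ : Set W} (hne : ∃ v ∈ U₀, v ≠ 0 ∧ IsWt H L χ v) :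
    ∀ (n : ℕ) (K : Subgroup Γ), IsPGroup 2 K → K ≤ normalizer (L : Set Γ) →
    (∀ v ∈ U₀, IsWt H L χ v → ∃ u ∈ Zn H n K, Pr H L χ u = v ∧
      ∀ g ∈ K, g ∉ stab L χ → Pr H L (tw g χ) u = 0) →
    ∃ j ≤ n, dser j K ≤ stab L χ ∧ ∀ v ∈ U₀, IsWt H L χ v → v ∈ Zn H (n - j) (dser j K) := by
  have h2f : Fact (Nat.Prime 2) := ⟨Nat.prime_two⟩
  have hfix : ∀ (n : ℕ) (K : Subgroup Γ), K ≤ stab L χ →
    (∀ v ∈ U₀, IsWt H L χ v → ∃ u ∈ Zn H n K, Pr H L χ u = v ∧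
      ∀ g ∈ K, g ∉ stab L χ → Pr H L (tw g χ) u = 0) →
    ∃ j ≤ n, dser j K ≤ stab L χ ∧ ∀ v ∈ U₀, IsWt H L χ v → v ∈ Zn H (n - j) (dser j K) := by
    intro n K hKs hfull
    refine ⟨0, Nat.zero_le n, hKs, ?_⟩
    intro v hv hvχ
    obtain ⟨u, hu, hu1, -⟩ := hfull v hv hvχ
    rw [← hu1]
    refine Zn_comm H n (Pr H L χ) ?_ hu
    intro x hx v
    rw [Pr_conj H χ (hKs hx).1]
    rw [Pr_congr H (χ := tw x χ) (χ' := χ) fun y hy => (hKs hx).2 y hy]
  intro n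
  induction n with
  | zero =>
    intro K hK hKL hfull
    by_cases hKs : K ≤ stab L χ
    · exact hfix 0 K hKs hfull
    · exfalso
      obtain ⟨g, hg, hgs⟩ := Set.not_subset.1 hKs
      obtain ⟨v, hv, hv0, hvχ⟩ := hne
      obtain ⟨u, hu, hu1, hu2⟩ := hfull v hv hvχ
      have h1 := (mem_Zn_zero H).1 hu g hg
      have h2 : g⁻¹ ∉ stab L χ := fun h => hgs (by simpa using inv_mem h)
      have h3 := Pr_conj H (tw g⁻¹ χ) (hKL hg) u
      rw [hu2 _ (inv_mem hg) h2, map_zero, tw_tw, mul_inv_cancel, h1] at h3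
      have h4 : tw 1 χ = χ := by funext x; rw [tw_apply]; simp
      rw [h4, hu1] at h3
      exact hv0 h3.symm
  | succ n ih =>
    intro K hK hKL hfull
    by_cases hKs : K ≤ stab L χ
    · exact hfix (n + 1) K hKs hfull
    · obtain ⟨s, hs, hsJ⟩ := exists_not_mem hK hKs
      obtain ⟨j, hj, h1, h2⟩ := ih ⁅K, K⁆ (hK.to_le (comm_le_self K)) ((comm_le_self K).trans hKL) (by
        intro v hv hvχ
        obtain ⟨u, hu, hu1, hu2⟩ := hfull v hv hvχ
        have hs1 : s⁻¹ ∉ stab L χ := fun h => hsJ 1 (one_mem _) (by simpa using inv_mem h)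
        refine ⟨u - H s u, ?_, ?_, ?_⟩
        · have := neg_mem ((mem_Zn_succ H).1 hu s hs)
          rwa [neg_sub] at this
        · have h3 := Pr_conj H (tw s⁻¹ χ) (hKL hs) u
          rw [hu2 _ (inv_mem hs) hs1, map_zero, tw_tw, mul_inv_cancel] at h3
          have h4 : tw 1 χ = χ := by funext x; rw [tw_apply]; simp
          rw [h4] at h3
          rw [map_sub, hu1, ← h3, sub_zero]
        · intro g hg hgs
          have h3 := Pr_conj H (tw (s⁻¹ * g) χ) (hKL hs) u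
          have h5 : s⁻¹ * g ∉ stab L χ := by
            intro h
            apply hsJ g⁻¹ (inv_mem hg)
            have := inv_mem h
            rwa [mul_inv_rev, inv_inv] at this
          rw [hu2 _ (mul_mem (inv_mem hs) (comm_le_self K hg)) h5, map_zero, tw_tw,
            mul_inv_cancel_left] at h3
          rw [map_sub, hu2 g (comm_le_self K hg) hgs, ← h3, sub_zero])
      refine ⟨j + 1, by omega, h1, ?_⟩
      intro v hv hvχ
      have := h2 v hv hvχ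
      rwa [Nat.add_sub_add_right]

omit [Fintype L] in
theorem wt_main' [Finite Γ] (hc : (Nat.card L : k) ≠ 0) {χ : Γ → k} {U₀ : Set W}
    (hne : ∃ v ∈ U₀, v ≠ 0 ∧ IsWt H L χ v) (n : ℕ) (K : Subgroup Γ) (hK : IsPGroup 2 K)
    (hKL : K ≤ normalizer (L : Set Γ)) (hU : ∀ v ∈ U₀, IsWt H L χ v → v ∈ Zn H n K) :
    ∃ j ≤ n, dser j K ≤ stab L χ ∧ ∀ v ∈ U₀, IsWt H L χ v → v ∈ Zn H (n - j) (dser j K) := by
  classical
  have := Fintype.ofFinite L
  obtain ⟨v₀, hv₀, hv₀0, hv₀χ⟩ := id hne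
  have hχ : ∀ x ∈ L, ∀ y ∈ L, χ (x * y) = χ x * χ y := fun x hx y hy => isWt_mul hv₀χ hv₀0 hx hy
  have hχ1 : χ 1 = 1 := isWt_one hv₀χ hv₀0
  refine wt_main H hne n K hK hKL ?_
  intro v hv hvχ
  refine ⟨v, hU v hv hvχ, Pr_self H hc hvχ, ?_⟩
  intro g hg hgs
  have hgL := hKL hg
  refine Pr_ne H ?_ ?_ hvχ ?_
  · intro x hx y hy
    rw [tw_apply, tw_apply, tw_apply, ← hχ _ (conj_mem_of_normalizer hgL hx) _
      (conj_mem_of_normalizer hgL hy)]
    congr 1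
    group
  · rw [tw_apply]
    simpa using hχ1
  · by_contra hcon
    push Not at hcon
    exact hgs ⟨hgL, fun x hx => (hcon x hx).symm⟩

end Proj

end Cfsg.Agent.Lib.DerZn
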