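import Mathlib

/-!
# Derangements in transitive groups (helper9)

Counting tools: sums of powers of the number of fixed points, class functions.
-/

set_option autoImplicit false
set_option linter.unusedSectionVars false
set_option linter.unusedVariables false

namespace Cfsg.Agent.Lib.DerangeH9

open MulAction Finset

noncomputable section

open Classical

variable {G : Type*} [Group G] [Fintype G] (Ω : Type*) [MulAction G Ω] [Fintype Ω]

/-- the number of fixed points, as an integer -/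
def fx (g : G) : ℤ := ((univ.filter fun x : Ω => g • x = x).card : ℤ)

variable {Ω}

theorem fx_eq_sum (g : G) : fx Ω g = ∑ x : Ω, if g • x = x then (1 : ℤ) else 0 := by
  rw [fx, card_filter]; push_cast; rfl

theorem fx_nonneg (g : G) : 0 ≤ fx Ω g := Int.natCast_nonneg _

theorem fx_le (g : G) : fx Ω g ≤ Fintype.card Ω := by
  rw [fx]; exact_mod_cast Finset.card_le_univ _

theorem fx_one : fx Ω (1 : G) = Fintype.card Ω := by
  rw [fx]
  simp

theorem fx_conj (k g : G) : fx Ω (k * g * k⁻¹) = fx Ω g := by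
  rw [fx_eq_sum, fx_eq_sum]
  apply Fintype.sum_equiv (MulAction.toPerm k⁻¹)
  intro x
  have : ((k * g * k⁻¹) • x = x) ↔ (g • (MulAction.toPerm k⁻¹ x) = MulAction.toPerm k⁻¹ x) := by
    rw [MulAction.toPerm_apply, mul_smul, mul_smul, eq_inv_smul_iff]
  simp only [this]

theorem sum_fx_mul (w : G → ℤ) :
    ∑ g, fx Ω g * w g = ∑ x : Ω, ∑ g : G, if g • x = x then w g else 0 := by
  rw [sum_comm]
  apply sum_congr rfl
  intro g _
  rw [fx_eq_sum, sum_mul]
  apply sum_congr rfl
  intro x _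
  split_ifs <;> simp

/-- Burnside's lemma for a subgroup -/
theorem sum_fx_subgroup (H : Subgroup G) :
    ∑ g : G, (if g ∈ H then fx Ω g else 0) =
      (Nat.card (Quotient (orbitRel H Ω)) : ℤ) * (Nat.card H : ℤ) := by
  have h1 := MulAction.sum_card_fixedBy_eq_card_orbits_mul_card_group H Ω
  rw [Nat.card_eq_fintype_card, Nat.card_eq_fintype_card]
  have h2 : ∑ g : G, (if g ∈ H then fx Ω g else 0) = ∑ g : H, fx Ω (g : G) := by
    rw [← sum_filter]
    rw [← Finset.sum_subtype (univ.filter fun g => g ∈ H) (fun x => by simp) (fun g => fx Ω g)]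
  rw [h2]
  have h3 : ∀ g : H, fx Ω (g : G) = ((Fintype.card (fixedBy Ω g) : ℕ) : ℤ) := by
    intro g
    rw [fx, Fintype.card_subtype]
    rfl
  simp only [h3]
  exact_mod_cast h1

theorem sum_fx (h : IsPretransitive G Ω) [Nonempty Ω] : ∑ g : G, fx Ω g = Nat.card G := by
  have h1 := sum_fx_subgroup (Ω := Ω) (⊤ : Subgroup G)
  rw [Subgroup.card_top] at h1
  simp only [Subgroup.mem_top, if_true] at h1
  rw [h1]
  have h2 : Nat.card (Quotient (orbitRel (⊤ : Subgroup G) Ω)) = 1 := by
    rw [Nat.card_eq_fintype_card, Fintype.card_eq_one_iff]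
    obtain ⟨a⟩ := ‹Nonempty Ω›
    refine ⟨Quotient.mk'' a, ?_⟩
    intro q
    induction q using Quotient.inductionOn' with
    | _ b =>
      apply Quotient.sound'
      obtain ⟨g, hg⟩ := h.exists_smul_eq a b
      exact ⟨⟨g, Subgroup.mem_top g⟩, hg⟩
  rw [h2]; simp

/-- fixed points on pairs -/
theorem fx_prod (g : G) : fx (Ω × Ω) g = fx Ω g ^ 2 := by
  rw [fx, fx, sq, ← Nat.cast_mul, ← card_product]
  congr 2
  ext ⟨x, y⟩
  simp [Prod.ext_iff]

theorem sum_fx_sq : ∑ g : G, fx Ω g ^ 2 =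
    (Nat.card (Quotient (orbitRel (⊤ : Subgroup G) (Ω × Ω))) : ℤ) * (Nat.card G : ℤ) := by
  have h1 := sum_fx_subgroup (Ω := Ω × Ω) (⊤ : Subgroup G)
  rw [Subgroup.card_top] at h1
  simp only [Subgroup.mem_top, if_true, fx_prod] at h1
  exact h1

/-- two-transitivity, elementwise -/
def TwoTr (G : Type*) [Group G] (Ω : Type*) [MulAction G Ω] : Prop :=
  ∀ x y x' y' : Ω, x ≠ y → x' ≠ y' → ∃ g : G, g • x = x' ∧ g • y = y'

theorem three_le_of_not_twoTr (h : IsPretransitive G Ω) (h2 : ¬ TwoTr G Ω) :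
    3 ≤ Nat.card (Quotient (orbitRel (⊤ : Subgroup G) (Ω × Ω))) := by
  rw [Nat.card_eq_fintype_card]
  rw [TwoTr] at h2
  push Not at h2
  obtain ⟨x, y, x', y', hxy, hxy', hno⟩ := h2
  set q : Ω × Ω → Quotient (orbitRel (⊤ : Subgroup G) (Ω × Ω)) := Quotient.mk'' with hq
  have hne : ∀ a b : Ω × Ω, q a = q b → ∃ g : G, g • b = a := by
    intro a b hab
    have h3 := Quotient.exact' hab
    obtain ⟨g, hg⟩ := h3
    exact ⟨g, hg⟩
  have h1 : q (x, x) ≠ q (x, y) := by
    intro hh
    obtain ⟨g, hg⟩ := hne _ _ hh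
    rw [Prod.smul_mk, Prod.mk.injEq] at hg
    exact hxy (smul_left_cancel g (hg.1.trans hg.2.symm))
  have h2 : q (x, x) ≠ q (x', y') := by
    intro hh
    obtain ⟨g, hg⟩ := hne _ _ hh
    rw [Prod.smul_mk, Prod.mk.injEq] at hg
    exact hxy' (smul_left_cancel g (hg.1.trans hg.2.symm))
  have h3 : q (x, y) ≠ q (x', y') := by
    intro hh
    obtain ⟨g, hg⟩ := hne _ _ hh.symm
    rw [Prod.smul_mk, Prod.mk.injEq] at hg
    exact hno g hg.1 hg.2
  have h4 : ({q (x, x), q (x, y), q (x', y')} : Finset _).card = 3 := by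
    rw [card_insert_of_notMem, card_insert_of_notMem, card_singleton]
    · simpa using h3
    · simp only [mem_insert, mem_singleton, not_or]
      exact ⟨h1, h2⟩
  rw [← h4]
  exact card_le_univ _

/-- the number of derangements -/
theorem der_ge (h : IsPretransitive G Ω) [Nonempty Ω] :
    ((Nat.card (Quotient (orbitRel (⊤ : Subgroup G) (Ω × Ω))) : ℤ) - 1) * (Nat.card G : ℤ) ≤
      (Fintype.card Ω : ℤ) * ((univ.filter fun g : G => fx Ω g = 0).card : ℤ) := by
  have h1 := sum_fx (G := G) (Ω := Ω) h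
  have h2 := sum_fx_sq (G := G) (Ω := Ω)
  have h3 : -((Fintype.card Ω : ℤ) * ((univ.filter fun g : G => fx Ω g = 0).card : ℤ)) ≤
      ∑ g : G, (fx Ω g - 1) * ((Fintype.card Ω : ℤ) - fx Ω g) := by
    have h4 : -((Fintype.card Ω : ℤ) * ((univ.filter fun g : G => fx Ω g = 0).card : ℤ)) =
        ∑ g : G, (if fx Ω g = 0 then -(Fintype.card Ω : ℤ) else 0) := by
      rw [← sum_filter, sum_const, nsmul_eq_mul]; ring
    rw [h4]
    apply sum_le_sum
    intro g _
    split_ifs with h0
    · rw [h0]; simp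
    · have h5 := fx_nonneg (Ω := Ω) g
      have h6 := fx_le (Ω := Ω) g
      apply mul_nonneg
      · omega
      · omega
  have h4 : ∑ g : G, (fx Ω g - 1) * ((Fintype.card Ω : ℤ) - fx Ω g) =
      ((Fintype.card Ω : ℤ) + 1) * ∑ g : G, fx Ω g - ∑ g : G, fx Ω g ^ 2 -
        (Fintype.card Ω : ℤ) * (Nat.card G : ℤ) := by
    rw [mul_sum, ← sum_sub_distrib]
    have h5 : (Fintype.card Ω : ℤ) * (Nat.card G : ℤ) = ∑ g : G, (Fintype.card Ω : ℤ) := by
      rw [sum_const, card_univ, nsmul_eq_mul, Nat.card_eq_fintype_card]; ring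
    rw [h5, ← sum_sub_distrib]
    apply sum_congr rfl
    intro g _
    ring
  rw [h4, h1, h2] at h3
  linarith

/-- pointwise stabilizer of a pair -/
def St (G : Type*) [Group G] {Ω : Type*} [MulAction G Ω] (x y : Ω) : Subgroup G :=
  stabilizer G x ⊓ stabilizer G y

omit [Fintype G] [Fintype Ω] in
theorem mem_St {x y : Ω} {g : G} : g ∈ St G x y ↔ g • x = x ∧ g • y = y := by
  rw [St, Subgroup.mem_inf, mem_stabilizer_iff, mem_stabilizer_iff]

theorem fx_mul_sub (g : G) : fx Ω g * (fx Ω g - 1) =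
    ∑ p ∈ (univ : Finset Ω).offDiag, if g ∈ St G p.1 p.2 then (1 : ℤ) else 0 := by
  have h1 : ∑ p ∈ (univ : Finset Ω).offDiag, (if g ∈ St G p.1 p.2 then (1 : ℤ) else 0) =
      (((univ.filter fun x : Ω => g • x = x).offDiag.card : ℕ) : ℤ) := by
    rw [card_eq_sum_ones, Nat.cast_sum]
    push_cast
    rw [← sum_filter]
    apply sum_congr _ (fun _ _ => rfl)
    ext ⟨x, y⟩
    simp only [mem_filter, mem_offDiag, mem_univ, true_and, mem_St]
    tauto
  rw [h1, offDiag_card, Nat.cast_sub (Nat.le_mul_self _), fx]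
  push_cast; ring

theorem sum_St_conj (h2 : TwoTr G Ω) {a b x y : Ω} (hab : a ≠ b) (hxy : x ≠ y) (w : G → ℤ)
    (hw : ∀ k g, w (k * g * k⁻¹) = w g) :
    ∑ g : G, (if g ∈ St G x y then w g else 0) = ∑ g : G, (if g ∈ St G a b then w g else 0) := by
  obtain ⟨k, hk1, hk2⟩ := h2 a b x y hab hxy
  symm
  apply Fintype.sum_equiv (MulAut.conj k).toEquiv
  intro g
  have h3 : (MulAut.conj k).toEquiv g = k * g * k⁻¹ := rfl
  rw [h3, hw]
  have h4 : k * g * k⁻¹ ∈ St G x y ↔ g ∈ St G a b := by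
    rw [mem_St, mem_St, ← hk1, ← hk2]
    simp only [mul_smul, inv_smul_smul, smul_left_cancel_iff]
  simp only [h4]

theorem sum_pairs (h2 : TwoTr G Ω) {a b : Ω} (hab : a ≠ b) (w : G → ℤ)
    (hw : ∀ k g, w (k * g * k⁻¹) = w g) :
    ∑ g : G, fx Ω g * (fx Ω g - 1) * w g =
      (Fintype.card Ω : ℤ) * ((Fintype.card Ω : ℤ) - 1) *
        ∑ g : G, (if g ∈ St G a b then w g else 0) := by
  have h3 : ∀ g : G, fx Ω g * (fx Ω g - 1) * w g =
      ∑ p ∈ (univ : Finset Ω).offDiag, if g ∈ St G p.1 p.2 then w g else 0 := by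
    intro g
    rw [fx_mul_sub, sum_mul]
    apply sum_congr rfl
    intro p _
    split_ifs <;> simp
  simp only [h3]
  rw [sum_comm]
  have h4 : ∀ p ∈ (univ : Finset Ω).offDiag, (∑ g : G, (if g ∈ St G p.1 p.2 then w g else 0)) =
      ∑ g : G, (if g ∈ St G a b then w g else 0) := by
    intro p hp
    rw [mem_offDiag] at hp
    exact sum_St_conj h2 hab hp.2.2 w hw
  rw [sum_congr rfl h4, sum_const, nsmul_eq_mul, offDiag_card, card_univ,
    Nat.cast_sub (Nat.le_mul_self _)]
  push_cast; ring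

theorem card_eq (h2 : TwoTr G Ω) {a b : Ω} (hab : a ≠ b) :
    (Nat.card G : ℤ) = (Fintype.card Ω : ℤ) * ((Fintype.card Ω : ℤ) - 1) * Nat.card (St G a b) := by
  have h3 := MulAction.card_orbit_mul_card_stabilizer_eq_card_group G (a, b)
  have h4 : Fintype.card (orbit G (a, b)) = Fintype.card Ω * Fintype.card Ω - Fintype.card Ω := by
    have h6 := offDiag_card (univ : Finset Ω)
    rw [card_univ] at h6
    rw [← h6, ← Fintype.card_coe]
    apply Fintype.card_congr
    apply Equiv.subtypeEquivRight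
    rintro ⟨x, y⟩
    simp only [mem_offDiag, mem_univ, true_and, mem_orbit_iff]
    constructor
    · rintro ⟨g, hg⟩
      rw [Prod.smul_mk, Prod.mk.injEq] at hg
      rw [← hg.1, ← hg.2]
      intro hh
      exact hab (smul_left_cancel g hh)
    · intro hxy
      obtain ⟨g, hg1, hg2⟩ := h2 a b x y hab hxy
      exact ⟨g, by rw [Prod.smul_mk, hg1, hg2]⟩
  have h5 : Fintype.card (stabilizer G (a, b)) = Nat.card (St G a b) := by
    rw [← Nat.card_eq_fintype_card]
    congr 2
    ext g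
    rw [mem_stabilizer_iff, mem_St, Prod.smul_mk, Prod.mk.injEq]
  rw [h4, h5] at h3
  rw [Nat.card_eq_fintype_card, ← h3, Nat.cast_mul, Nat.cast_sub (Nat.le_mul_self _)]
  push_cast; ring

theorem sum_ite_mem (H : Subgroup G) : ∑ g : G, (if g ∈ H then (1 : ℤ) else 0) = Nat.card H := by
  rw [← sum_filter, sum_const, nsmul_eq_mul, mul_one, Nat.card_eq_fintype_card, Fintype.card_subtype]

/-- the key inequality -/
theorem key (htr : IsPretransitive G Ω) (h2 : TwoTr G Ω) {a b : Ω} (hab : a ≠ b)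
    (hh : 2 ≤ Nat.card (St G a b))
    (hbad : (Fintype.card Ω : ℤ) * ((univ.filter fun g : G => fx Ω g = 0).card : ℤ) <
      2 * (Nat.card G : ℤ)) :
    (Fintype.card Ω : ℤ) * Nat.card (St G a b) <
      (2 * (Nat.card (St G a b) : ℤ) - 1) * Nat.card (Quotient (orbitRel (St G a b) Ω)) := by
  have : Nonempty Ω := ⟨a⟩
  set n : ℤ := (Fintype.card Ω : ℤ) with hn
  set h : ℤ := (Nat.card (St G a b) : ℤ) with hhdef
  set s : ℤ := (Nat.card (Quotient (orbitRel (St G a b) Ω)) : ℤ) with hs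
  set d : ℤ := ((univ.filter fun g : G => fx Ω g = 0).card : ℤ) with hd
  have hn2 : 2 ≤ n := by
    have : Nontrivial Ω := ⟨a, b, hab⟩
    have := Fintype.one_lt_card (α := Ω)
    omega
  have hcard := card_eq (G := G) h2 hab
  rw [← hn, ← hhdef] at hcard
  -- sums over the whole group
  have e1 : ∑ g : G, (fx Ω g - 1) = 0 := by
    rw [sum_sub_distrib, sum_fx htr, sum_const, card_univ, nsmul_eq_mul, Nat.card_eq_fintype_card]
    ring
  have e2 : ∑ g : G, fx Ω g * (fx Ω g - 1) * 1 = n * (n - 1) * h := by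
    rw [sum_pairs h2 hab (fun _ => 1) (fun _ _ => rfl), sum_ite_mem]
  have e3 : ∑ g : G, fx Ω g * (fx Ω g - 1) * fx Ω g = n * (n - 1) * (s * h) := by
    rw [sum_pairs h2 hab (fun g => fx Ω g) (fun k g => fx_conj k g), sum_fx_subgroup]
  -- sums over `S`
  set S : Finset G := univ.filter fun g => g ≠ 1 ∧ 1 ≤ fx Ω g with hS
  have split : ∀ u : G → ℤ, ∑ g : G, u g = ∑ g ∈ S, u g + u 1 + ∑ g ∈ univ.filter (fun g : G => fx Ω g = 0), u g := by
    intro u
    have h3 : (univ : Finset G) = S ∪ ({1} ∪ univ.filter (fun g : G => fx Ω g = 0)) := by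
      ext g
      simp only [mem_univ, mem_union, mem_singleton, mem_filter, hS, true_and, true_iff]
      have := fx_nonneg (Ω := Ω) g
      by_cases h1 : g = 1
      · right; left; exact h1
      · by_cases h4 : fx Ω g = 0
        · right; right; exact h4
        · left; exact ⟨h1, by omega⟩
    have h1n : (1 : G) ∉ univ.filter (fun g : G => fx Ω g = 0) := by
      rw [mem_filter, fx_one]
      simp only [mem_univ, true_and]
      omega
    have h5 : ∑ g : G, u g = ∑ g ∈ S ∪ ({1} ∪ univ.filter (fun g : G => fx Ω g = 0)), u g := by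
      rw [← h3]
    rw [h5, sum_union, sum_union, sum_singleton]
    · ring
    · rw [disjoint_singleton_left]; exact h1n
    · rw [disjoint_union_right]
      constructor
      · rw [disjoint_singleton_right]
        simp [hS]
      · rw [disjoint_left]
        intro g hg hg0
        rw [hS, mem_filter] at hg
        rw [mem_filter] at hg0
        omega
  have f1 : ∑ g ∈ S, (fx Ω g - 1) = d - (n - 1) := by
    have h3 := split (fun g => fx Ω g - 1)
    rw [e1, fx_one] at h3
    have h4 : ∑ g ∈ univ.filter (fun g : G => fx Ω g = 0), (fx Ω g - 1) = - d := by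
      rw [hd, card_eq_sum_ones, Nat.cast_sum, ← sum_neg_distrib]
      apply sum_congr rfl
      intro g hg
      rw [mem_filter] at hg
      rw [hg.2]; simp
    rw [h4] at h3
    linarith
  have f2 : ∑ g ∈ S, fx Ω g * (fx Ω g - 1) = n * (n - 1) * (h - 1) := by
    have h3 := split (fun g => fx Ω g * (fx Ω g - 1) * 1)
    rw [e2, fx_one] at h3
    have h4 : ∑ g ∈ univ.filter (fun g : G => fx Ω g = 0), (fx Ω g * (fx Ω g - 1) * 1) = 0 := by
      apply sum_eq_zero
      intro g hg
      rw [mem_filter] at hg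
      rw [hg.2]; simp
    rw [h4] at h3
    simp only [mul_one] at h3
    rw [← hn] at h3
    linarith
  have f3 : ∑ g ∈ S, fx Ω g * (fx Ω g - 1) * fx Ω g = n * (n - 1) * (s * h - n) := by
    have h3 := split (fun g => fx Ω g * (fx Ω g - 1) * fx Ω g)
    rw [e3, fx_one] at h3
    have h4 : ∑ g ∈ univ.filter (fun g : G => fx Ω g = 0), (fx Ω g * (fx Ω g - 1) * fx Ω g) = 0 := by
      apply sum_eq_zero
      intro g hg
      rw [mem_filter] at hg
      rw [hg.2]; simp
    rw [h4, ← hn] at h3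
    linarith
  -- Cauchy-Schwarz
  have cs := sum_sq_le_sum_mul_sum_of_sq_le_mul (R := ℤ) S (r := fun g => fx Ω g * (fx Ω g - 1))
    (f := fun g => fx Ω g - 1) (g := fun g => fx Ω g * (fx Ω g - 1) * fx Ω g)
    (by
      intro g hg
      rw [hS, mem_filter] at hg
      have := hg.2.2
      show (0 : ℤ) ≤ fx Ω g - 1
      omega)
    (by
      intro g hg
      rw [hS, mem_filter] at hg
      have := hg.2.2
      show (0 : ℤ) ≤ fx Ω g * (fx Ω g - 1) * fx Ω g
      apply mul_nonneg (mul_nonneg _ _) <;> omega)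
    (by intro g _; apply le_of_eq; ring)
  rw [f1, f2, f3] at cs
  -- the arithmetic
  have hA : d - (n - 1) < (n - 1) * (2 * h - 1) := by
    rw [hcard] at hbad
    have h3 : n * d < n * (2 * (n - 1) * h) := by linarith
    have h4 : d < 2 * (n - 1) * h := lt_of_mul_lt_mul_left h3 (by omega)
    linarith
  have hh2 : (2 : ℤ) ≤ h := by rw [hhdef]; exact_mod_cast hh
  have hpos : 0 < s * h - n := by
    by_contra hcon
    push Not at hcon
    have hA0 : 0 ≤ d - (n - 1) := by
      rw [← f1]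
      apply sum_nonneg
      intro g hg
      rw [hS, mem_filter] at hg
      have := hg.2.2
      omega
    have h3 : (d - (n - 1)) * (n * (n - 1) * (s * h - n)) ≤ 0 := by
      apply mul_nonpos_of_nonneg_of_nonpos hA0
      apply mul_nonpos_of_nonneg_of_nonpos _ hcon
      apply mul_nonneg <;> omega
    have h4 : 0 < (n * (n - 1) * (h - 1)) ^ 2 := by
      apply pow_pos
      apply mul_pos (mul_pos _ _) <;> omega
    linarith
  have h5 : (n * (n - 1) * (h - 1)) ^ 2 < (n - 1) * (2 * h - 1) * (n * (n - 1) * (s * h - n)) := by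
    refine lt_of_le_of_lt cs ?_
    apply mul_lt_mul_of_pos_right hA
    apply mul_pos (mul_pos _ _) hpos <;> omega
  have h6 : n * (n - 1) ^ 2 * (n * (h - 1) ^ 2) < n * (n - 1) ^ 2 * ((2 * h - 1) * (s * h - n)) := by
    nlinarith [h5]
  have h7 : n * (h - 1) ^ 2 < (2 * h - 1) * (s * h - n) := by
    apply lt_of_mul_lt_mul_left h6
    apply mul_nonneg
    · omega
    · positivity
  have h8 : h * (n * h) < h * ((2 * h - 1) * s) := by nlinarith [h7]
  exact lt_of_mul_lt_mul_left h8 (by omega)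

end

end Cfsg.Agent.Lib.DerangeH9
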