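import Cfsg.Agent.Lib.DerangeH9

/-!
# Derangements in two-transitive groups, II (helper9)

The linear space of fixed point sets of two-point stabilizers.
-/

set_option autoImplicit false
set_option linter.unusedSectionVars false
set_option linter.unusedVariables false

namespace Cfsg.Agent.Lib.DerangeH9

open MulAction Finset

noncomputable section

open Classical

variable {G : Type*} [Group G] [Fintype G] {Ω : Type*} [MulAction G Ω] [Fintype Ω]

theorem St_symm (x y : Ω) : St G x y = St G y x := by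
  rw [St, St, inf_comm]

/-- the fixed points of a two-point stabilizer -/
def Ln (G : Type*) [Group G] {Ω : Type*} [MulAction G Ω] [Fintype Ω] (x y : Ω) : Finset Ω :=
  univ.filter fun z => ∀ g ∈ St G x y, g • z = z

theorem mem_Ln {x y z : Ω} : z ∈ Ln G x y ↔ ∀ g ∈ St G x y, g • z = z := by
  unfold Ln; simp only [mem_filter, mem_univ, true_and]

theorem left_mem_Ln (x y : Ω) : x ∈ Ln G x y := by
  rw [mem_Ln]; intro g hg; exact (mem_St.mp hg).1

theorem right_mem_Ln (x y : Ω) : y ∈ Ln G x y := by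
  rw [mem_Ln]; intro g hg; exact (mem_St.mp hg).2

theorem card_St (h2 : TwoTr G Ω) {a b x y : Ω} (hab : a ≠ b) (hxy : x ≠ y) :
    Nat.card (St G x y) = Nat.card (St G a b) := by
  have h := sum_St_conj (G := G) h2 hab hxy (fun _ => 1) (fun _ _ => rfl)
  rw [sum_ite_mem, sum_ite_mem] at h
  exact_mod_cast h

theorem card_Ln (h2 : TwoTr G Ω) {a b x y : Ω} (hab : a ≠ b) (hxy : x ≠ y) :
    (Ln G x y).card = (Ln G a b).card := by
  obtain ⟨k, hk1, hk2⟩ := h2 a b x y hab hxy
  symm
  apply card_bij (fun z _ => k • z)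
  · intro z hz
    rw [mem_Ln] at hz ⊢
    intro g hg
    have h1 : k⁻¹ * g * k ∈ St G a b := by
      rw [mem_St] at hg ⊢
      rw [← hk1, ← hk2] at hg
      constructor
      · rw [mul_smul, mul_smul, hg.1, inv_smul_smul]
      · rw [mul_smul, mul_smul, hg.2, inv_smul_smul]
    have h3 := hz _ h1
    rw [mul_smul, mul_smul, inv_smul_eq_iff] at h3
    exact h3
  · intro z _ w _ h
    exact smul_left_cancel k h
  · intro z hz
    refine ⟨k⁻¹ • z, ?_, smul_inv_smul _ _⟩
    rw [mem_Ln] at hz ⊢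
    intro g hg
    have h1 : k * g * k⁻¹ ∈ St G x y := by
      rw [mem_St] at hg ⊢
      rw [← hk1, ← hk2]
      constructor
      · rw [mul_smul, mul_smul, inv_smul_smul, hg.1]
      · rw [mul_smul, mul_smul, inv_smul_smul, hg.2]
    have h3 := hz _ h1
    rw [mul_smul, mul_smul] at h3
    rw [eq_inv_smul_iff]; exact h3

/-- a two-point stabilizer fixing another pair is its stabilizer -/
theorem St_eq (h2 : TwoTr G Ω) {x y z w : Ω} (hxy : x ≠ y) (hzw : z ≠ w)
    (hz : z ∈ Ln G x y) (hw : w ∈ Ln G x y) : St G x y = St G z w := by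
  apply Subgroup.eq_of_le_of_card_ge
  · intro g hg
    rw [mem_St]
    exact ⟨mem_Ln.mp hz g hg, mem_Ln.mp hw g hg⟩
  · rw [card_St h2 hxy hzw]

variable [FaithfulSMul G Ω]

theorem exists_moved {g : G} (hg : g ≠ 1) : ∃ z : Ω, g • z ≠ z := by
  by_contra hcon
  push Not at hcon
  apply hg
  apply FaithfulSMul.eq_of_smul_eq_smul (α := Ω)
  intro z
  rw [hcon z, one_smul]

/-- the subspace bound -/
theorem fx_bound (h2 : TwoTr G Ω) {a b : Ω} (hab : a ≠ b) {g : G} (hg : g ≠ 1) :
    fx Ω g * (((Ln G a b).card : ℤ) - 1) ≤ (Fintype.card Ω : ℤ) - 1 := by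
  obtain ⟨z, hz⟩ := exists_moved (Ω := Ω) hg
  set T : Finset Ω := univ.filter fun x : Ω => g • x = x with hT
  have hxz : ∀ x ∈ T, x ≠ z := by
    intro x hx hxz
    rw [hT, mem_filter] at hx
    rw [← hxz] at hz
    exact hz hx.2
  have h1 : (T.biUnion fun x => (Ln G x z).erase z).card = ∑ x ∈ T, ((Ln G x z).erase z).card := by
    apply card_biUnion
    intro x hx x' hx' hne
    rw [Function.onFun, disjoint_left]
    intro w hw hw'
    rw [mem_erase] at hw hw'
    have e1 := St_eq h2 (hxz x hx) hw.1 hw.2 (right_mem_Ln x z)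
    have e2 := St_eq h2 (hxz x' hx') hw'.1 hw'.2 (right_mem_Ln x' z)
    have e3 : St G x z = St G x' z := e1.trans e2.symm
    have h3 : x' ∈ Ln G x z := by
      rw [mem_Ln, e3]
      exact mem_Ln.mp (left_mem_Ln x' z)
    have e4 := St_eq h2 (hxz x hx) hne (left_mem_Ln x z) h3
    have h5 : g ∈ St G x x' := by
      have hx1 := (mem_filter.mp (mem_coe.mp hx)).2
      have hx2 := (mem_filter.mp (mem_coe.mp hx')).2
      rw [mem_St]; exact ⟨hx1, hx2⟩
    rw [← e4, mem_St] at h5
    exact hz h5.2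
  have h2' : (T.biUnion fun x => (Ln G x z).erase z).card ≤ (univ.erase z : Finset Ω).card := by
    apply card_le_card
    intro w hw
    rw [mem_biUnion] at hw
    obtain ⟨x, _, hx⟩ := hw
    rw [mem_erase] at hx ⊢
    exact ⟨hx.1, mem_univ _⟩
  have h3 : ∑ x ∈ T, ((Ln G x z).erase z).card = T.card * ((Ln G a b).card - 1) := by
    rw [sum_congr rfl (g := fun _ => (Ln G a b).card - 1), sum_const, smul_eq_mul]
    intro x hx
    rw [card_erase_of_mem (right_mem_Ln x z), card_Ln h2 hab (hxz x hx)]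
  rw [h1, h3, card_erase_of_mem (mem_univ z), card_univ] at h2'
  have h4 : 1 ≤ (Ln G a b).card := card_pos.mpr ⟨a, left_mem_Ln a b⟩
  have h5 : 1 ≤ Fintype.card Ω := Fintype.card_pos_iff.mpr ⟨a⟩
  have h6 : fx Ω g = (T.card : ℤ) := rfl
  rw [h6]
  zify [h4, h5] at h2'
  exact h2'

/-- sum over a two-point stabilizer -/
theorem sum_bound (h2 : TwoTr G Ω) {a b : Ω} (hab : a ≠ b) :
    ((Nat.card (Quotient (orbitRel (St G a b) Ω)) : ℤ) * Nat.card (St G a b) - Fintype.card Ω) *
      (((Ln G a b).card : ℤ) - 1) ≤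
    ((Nat.card (St G a b) : ℤ) - 1) * ((Fintype.card Ω : ℤ) - 1) := by
  rw [← sum_fx_subgroup, ← sum_ite_mem]
  have h1 : ∀ u : G → ℤ, ∑ g : G, (if g ∈ St G a b then u g else 0) =
      ∑ g ∈ univ.filter (fun g : G => g ∈ St G a b ∧ g ≠ 1), u g + u 1 := by
    intro u
    rw [← sum_filter]
    have h3 : univ.filter (fun g : G => g ∈ St G a b) =
        insert 1 (univ.filter (fun g : G => g ∈ St G a b ∧ g ≠ 1)) := by
      ext g
      simp only [mem_filter, mem_univ, true_and, mem_insert]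
      constructor
      · intro hg
        by_cases h1 : g = 1
        · left; exact h1
        · right; exact ⟨hg, h1⟩
      · rintro (rfl | h)
        · exact one_mem _
        · exact h.1
    rw [h3, sum_insert]
    · ring
    · simp
  rw [h1, h1, fx_one]
  rw [add_sub_cancel_right, add_sub_cancel_right, sum_mul, sum_mul]
  apply sum_le_sum
  intro g hg
  rw [mem_filter] at hg
  rw [one_mul]
  exact fx_bound h2 hab hg.2.2

theorem card_Ln_bound (h2 : TwoTr G Ω) {a b : Ω} (hab : a ≠ b) (hh : 2 ≤ Nat.card (St G a b)) :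
    ((Ln G a b).card : ℤ) * (((Ln G a b).card : ℤ) - 1) ≤ (Fintype.card Ω : ℤ) - 1 := by
  have : Nontrivial (St G a b) := Finite.one_lt_card_iff_nontrivial.mp hh
  obtain ⟨⟨g, hg⟩, hg1⟩ := exists_ne (1 : St G a b)
  have hg2 : g ≠ 1 := fun h => hg1 (Subtype.ext h)
  have h1 := fx_bound h2 hab hg2
  have h3 : ((Ln G a b).card : ℤ) ≤ fx Ω g := by
    rw [fx]
    norm_cast
    apply card_le_card
    intro z hz
    rw [mem_filter]
    exact ⟨mem_univ _, mem_Ln.mp hz g hg⟩
  have h4 : 1 ≤ (Ln G a b).card := card_pos.mpr ⟨a, left_mem_Ln a b⟩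
  have h5 : (1 : ℤ) ≤ (Ln G a b).card := by exact_mod_cast h4
  nlinarith

end

end Cfsg.Agent.Lib.DerangeH9
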