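import Cfsg.Agent.Lib.DerangeH9b

/-!
# Derangements in two-transitive groups, III (helper9)

Orbits of the two-point stabilizer, three-cycles, the elementary abelian case.
-/

set_option autoImplicit false
set_option linter.unusedSectionVars false
set_option linter.unusedVariables false

namespace Cfsg.Agent.Lib.DerangeH9

open MulAction Finset

noncomputable section

open Classical

variable {G : Type*} [Group G] [Fintype G] {Ω : Type*} [MulAction G Ω] [Fintype Ω]

/-- size of an orbit -/
def csz (H : Subgroup G) (q : Quotient (orbitRel H Ω)) : ℕ :=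
  (univ.filter fun x : Ω => (Quotient.mk'' x : Quotient (orbitRel H Ω)) = q).card

theorem mk_eq_iff {H : Subgroup G} {x y : Ω} :
    (Quotient.mk'' x : Quotient (orbitRel H Ω)) = Quotient.mk'' y ↔ ∃ g ∈ H, g • y = x := by
  rw [Quotient.eq'']
  constructor
  · rintro ⟨g, hg⟩
    exact ⟨g, g.2, hg⟩
  · rintro ⟨g, hg, h⟩
    exact ⟨⟨g, hg⟩, h⟩

theorem csz_pos (H : Subgroup G) (q : Quotient (orbitRel H Ω)) : 0 < csz H q := by
  induction q using Quotient.inductionOn' with
  | _ x => exact card_pos.mpr ⟨x, by simp⟩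

theorem sum_csz (H : Subgroup G) : ∑ q : Quotient (orbitRel H Ω), csz H q = Fintype.card Ω := by
  rw [← card_univ]
  exact (card_eq_sum_card_fiberwise (f := fun x : Ω => (Quotient.mk'' x : Quotient (orbitRel H Ω)))
    (fun x _ => mem_univ _)).symm

theorem csz_mk_eq_one (H : Subgroup G) (z : Ω) :
    csz H (Quotient.mk'' z) = 1 ↔ ∀ g ∈ H, g • z = z := by
  constructor
  · intro h g hg
    rw [csz, card_eq_one] at h
    obtain ⟨w, hw⟩ := h
    have h1 : z ∈ ({w} : Finset Ω) := by rw [← hw]; simp
    have h2 : g • z ∈ ({w} : Finset Ω) := by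
      rw [← hw, mem_filter]
      exact ⟨mem_univ _, mk_eq_iff.mpr ⟨g, hg, rfl⟩⟩
    rw [mem_singleton] at h1 h2
    rw [h2, h1]
  · intro h
    rw [csz, card_eq_one]
    refine ⟨z, ?_⟩
    ext w
    rw [mem_filter, mem_singleton, mk_eq_iff]
    constructor
    · rintro ⟨_, g, hg, rfl⟩
      exact h g hg
    · rintro rfl
      exact ⟨mem_univ _, 1, H.one_mem, one_smul _ _⟩

theorem sum_one (a b : Ω) : (Ln G a b).card =
    ∑ q : Quotient (orbitRel (St G a b) Ω), if csz (St G a b) q = 1 then 1 else 0 := by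
  rw [card_eq_sum_card_fiberwise (f := fun x : Ω => (Quotient.mk'' x : Quotient (orbitRel (St G a b) Ω)))
    (t := univ) (fun x _ => mem_univ _)]
  apply sum_congr rfl
  intro q _
  split_ifs with h
  · rw [csz, card_eq_one] at h
    obtain ⟨w, hw⟩ := h
    rw [card_eq_one]
    refine ⟨w, ?_⟩
    have hwq : (Quotient.mk'' w : Quotient (orbitRel (St G a b) Ω)) = q := by
      have : w ∈ ({w} : Finset Ω) := mem_singleton_self w
      rw [← hw, mem_filter] at this
      exact this.2
    ext z
    rw [mem_filter, mem_singleton]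
    constructor
    · rintro ⟨_, hz⟩
      have : z ∈ univ.filter fun x : Ω => (Quotient.mk'' x : Quotient (orbitRel (St G a b) Ω)) = q := by
        rw [mem_filter]; exact ⟨mem_univ _, hz⟩
      rw [hw, mem_singleton] at this
      exact this
    · rintro rfl
      refine ⟨?_, hwq⟩
      rw [mem_Ln]
      apply (csz_mk_eq_one (St G a b) z).mp
      rw [csz, hwq, hw, card_singleton]
  · rw [card_eq_zero, filter_eq_empty_iff]
    intro z hz hzq
    apply h
    rw [← hzq, csz_mk_eq_one]
    exact mem_Ln.mp hz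

theorem total (a b : Ω) : Fintype.card Ω + (Ln G a b).card =
    2 * Nat.card (Quotient (orbitRel (St G a b) Ω)) +
      ∑ q : Quotient (orbitRel (St G a b) Ω), (csz (St G a b) q - 2) := by
  rw [← sum_csz (St G a b), sum_one (G := G) a b, ← sum_add_distrib, Nat.card_eq_fintype_card,
    ← card_univ, card_eq_sum_ones, mul_sum, ← sum_add_distrib]
  apply sum_congr rfl
  intro q _
  have := csz_pos (St G a b) q
  split_ifs with h
  · omega
  · omega

/-- points in orbits of size at most two of a subgroup are fixed by elements of order three -/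
theorem smul_eq_of_csz {H : Subgroup G} {g : G} (hg : g ∈ H) (h3 : g ^ 3 = 1) {z : Ω}
    (hz : csz H (Quotient.mk'' z) ≤ 2) : g • z = z := by
  have hm : ∀ g ∈ H, g • z ∈ univ.filter fun x : Ω =>
      (Quotient.mk'' x : Quotient (orbitRel H Ω)) = Quotient.mk'' z := by
    intro g hg
    rw [mem_filter]
    exact ⟨mem_univ _, mk_eq_iff.mpr ⟨g, hg, rfl⟩⟩
  by_contra hne
  have h1 : g • (g • z) = z ∨ g • (g • z) = g • z := by
    by_contra hcon
    push Not at hcon
    have h2 : ({z, g • z, g • (g • z)} : Finset Ω).card = 3 := by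
      rw [card_insert_of_notMem, card_insert_of_notMem, card_singleton]
      · rw [mem_singleton]; exact fun h => hcon.2 h.symm
      · rw [mem_insert, mem_singleton, not_or]
        exact ⟨fun h => hne h.symm, fun h => hcon.1 h.symm⟩
    have h4 : ({z, g • z, g • (g • z)} : Finset Ω) ⊆ univ.filter fun x : Ω =>
      (Quotient.mk'' x : Quotient (orbitRel H Ω)) = Quotient.mk'' z := by
      intro w hw
      rw [mem_insert, mem_insert, mem_singleton] at hw
      rcases hw with rfl | rfl | rfl
      · have := hm 1 H.one_mem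
        rwa [one_smul] at this
      · exact hm g hg
      · have := hm (g * g) (H.mul_mem hg hg)
        rwa [mul_smul] at this
    have h5 := card_le_card h4
    rw [h2] at h5
    have h6 : 3 ≤ csz H (Quotient.mk'' z) := h5
    omega
  rcases h1 with h1 | h1
  · apply hne
    have h2 : g • z = g • (g • (g • z)) := by rw [h1]
    have h4 : g • (g • (g • z)) = z := by
      rw [← mul_smul, ← mul_smul]
      have : g * g * g = 1 := by rw [← h3, pow_succ, pow_two]
      rw [this, one_smul]
    rw [h2, h4]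
  · exact hne (smul_left_cancel g h1)

variable [FaithfulSMul G Ω]

/-- Exactly one orbit of size three and the others of size at most two: impossible. -/
theorem no_three (h2 : TwoTr G Ω) {a b : Ω} (hab : a ≠ b) (hn : 7 ≤ Fintype.card Ω)
    (H : Subgroup G) (hH : H = St G a b)
    (q0 : Quotient (orbitRel H Ω)) (hq0 : csz H q0 = 3)
    (hq : ∀ q, q ≠ q0 → csz H q ≤ 2) : False := by
  -- an element of order 3
  have h3 : 3 ∣ Nat.card H := by
    induction q0 using Quotient.inductionOn' with
    | _ z =>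
      have h4 := MulAction.card_orbit_mul_card_stabilizer_eq_card_group H z
      have h5 : Fintype.card (orbit H z) = 3 := by
        rw [← hq0, csz, ← Fintype.card_subtype]
        apply Fintype.card_congr
        apply Equiv.subtypeEquivRight
        intro w
        rw [mem_orbit_iff]
        constructor
        · rintro ⟨g, hg⟩; exact mk_eq_iff.mpr ⟨g, g.2, hg⟩
        · intro h
          obtain ⟨g, hg, h⟩ := mk_eq_iff.mp h
          exact ⟨⟨g, hg⟩, h⟩
      rw [h5] at h4
      rw [Nat.card_eq_fintype_card, ← h4]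
      exact Dvd.intro _ rfl
  have : Fact (Nat.Prime 3) := ⟨Nat.prime_three⟩
  obtain ⟨⟨g, hg⟩, hg3⟩ := exists_prime_orderOf_dvd_card' 3 h3
  rw [Subgroup.orderOf_mk] at hg3
  have hg1 : g ^ 3 = 1 := by rw [← hg3]; exact pow_orderOf_eq_one g
  -- the permutation
  set σ : Equiv.Perm Ω := MulAction.toPerm g with hσ
  have hσ3 : orderOf σ = 3 := by
    have hinj : Function.Injective (MulAction.toPermHom G Ω) := MulAction.toPerm_injective
    have : orderOf (MulAction.toPermHom G Ω g) = orderOf g := orderOf_injective _ hinj g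
    rw [← hg3, ← this]; rfl
  have hsupp : σ.support ⊆ univ.filter fun x : Ω => (Quotient.mk'' x : Quotient (orbitRel H Ω)) = q0 := by
    intro x hx
    rw [mem_filter]
    refine ⟨mem_univ _, ?_⟩
    by_contra hne
    rw [Equiv.Perm.mem_support] at hx
    exact hx (smul_eq_of_csz hg hg1 (hq _ hne))
  have hcard : σ.support.card ≤ 3 := by
    have := card_le_card hsupp
    have h5 : (univ.filter fun x : Ω => (Quotient.mk'' x : Quotient (orbitRel H Ω)) = q0).card = 3 := hq0
    omega
  have hc3 : σ.IsThreeCycle := by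
    rw [← card_support_eq_three_iff]
    have h5 : σ.support.card ≠ 0 := by
      intro h
      rw [card_eq_zero, Equiv.Perm.support_eq_empty_iff] at h
      rw [h, orderOf_one] at hσ3
      omega
    have h6 : σ.support.card ≠ 1 := Equiv.Perm.card_support_ne_one σ
    have h7 : σ.support.card ≠ 2 := by
      intro h
      rw [Equiv.Perm.card_support_eq_two] at h
      have := h.orderOf
      omega
    omega
  -- primitivity
  set P : Subgroup (Equiv.Perm Ω) := (MulAction.toPermHom G Ω).range with hP
  have htwo : IsMultiplyPretransitive P Ω 2 := by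
    rw [is_two_pretransitive_iff]
    intro x y x' y' hxy hxy'
    obtain ⟨k, hk1, hk2⟩ := h2 x y x' y' hxy hxy'
    exact ⟨⟨MulAction.toPermHom G Ω k, ⟨k, rfl⟩⟩, hk1, hk2⟩
  have hprim : IsPreprimitive P Ω := isPreprimitive_of_is_two_pretransitive htwo
  have halt : alternatingGroup Ω ≤ P :=
    Equiv.Perm.alternatingGroup_le_of_isPreprimitive_of_isThreeCycle_mem hprim hc3 ⟨g, rfl⟩
  -- the points outside `{a, b}` form one orbit
  have hone : ∀ x y : Ω, x ≠ a → x ≠ b → y ≠ a → y ≠ b → x ≠ y →
      (Quotient.mk'' x : Quotient (orbitRel H Ω)) = Quotient.mk'' y := by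
    intro x y hxa hxb hya hyb hxy
    obtain ⟨w, hw⟩ : ∃ w : Ω, w ∉ ({a, b, x, y} : Finset Ω) := by
      by_contra hcon
      push Not at hcon
      have h5 : (univ : Finset Ω) ⊆ {a, b, x, y} := fun w _ => hcon w
      have h6 := card_le_card h5
      have h7 : ({a, b, x, y} : Finset Ω).card ≤ 4 := card_le_four
      rw [card_univ] at h6
      omega
    simp only [mem_insert, mem_singleton, not_or] at hw
    obtain ⟨hwa, hwb, hwx, hwy⟩ := hw
    have hτ : (Equiv.swap x y * Equiv.swap x w).IsThreeCycle :=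
      Equiv.Perm.isThreeCycle_swap_mul_swap_same hxy (Ne.symm hwx) (Ne.symm hwy)
    obtain ⟨k, hk⟩ := halt hτ.mem_alternatingGroup
    have hk' : ∀ z : Ω, k • z = (Equiv.swap x y * Equiv.swap x w) z := by
      intro z; rw [← hk]; rfl
    rw [mk_eq_iff]
    refine ⟨k, ?_, ?_⟩
    · rw [hH, mem_St, hk', hk']
      simp only [Equiv.Perm.coe_mul, Function.comp_apply]
      rw [Equiv.swap_apply_of_ne_of_ne (Ne.symm hxa) (Ne.symm hwa),
        Equiv.swap_apply_of_ne_of_ne (Ne.symm hxa) (Ne.symm hya),
        Equiv.swap_apply_of_ne_of_ne (Ne.symm hxb) (Ne.symm hwb),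
        Equiv.swap_apply_of_ne_of_ne (Ne.symm hxb) (Ne.symm hyb)]
      exact ⟨rfl, rfl⟩
    · rw [hk']
      simp only [Equiv.Perm.coe_mul, Function.comp_apply]
      rw [Equiv.swap_apply_of_ne_of_ne (Ne.symm hxy) (Ne.symm hwy), Equiv.swap_apply_right]
  obtain ⟨x, hx⟩ : ∃ x : Ω, x ∉ ({a, b} : Finset Ω) := by
    by_contra hcon
    push Not at hcon
    have h5 : (univ : Finset Ω) ⊆ {a, b} := fun w _ => hcon w
    have h6 := card_le_card h5
    have h7 : ({a, b} : Finset Ω).card ≤ 2 := card_le_two
    rw [card_univ] at h6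
    omega
  simp only [mem_insert, mem_singleton, not_or] at hx
  have h8 : (univ \ {a, b} : Finset Ω) ⊆ univ.filter fun y : Ω =>
      (Quotient.mk'' y : Quotient (orbitRel H Ω)) = Quotient.mk'' x := by
    intro y hy
    simp only [mem_sdiff, mem_univ, true_and, mem_insert, mem_singleton, not_or] at hy
    rw [mem_filter]
    refine ⟨mem_univ _, ?_⟩
    by_cases hyx : y = x
    · rw [hyx]
    · exact hone y x hy.1 hy.2 hx.1 hx.2 hyx
  have h9 := card_le_card h8
  have h10 : (univ \ {a, b} : Finset Ω).card + 2 ≥ Fintype.card Ω := by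
    have := le_card_sdiff ({a, b} : Finset Ω) univ
    have h7 : ({a, b} : Finset Ω).card ≤ 2 := card_le_two
    rw [card_univ] at this
    omega
  have h11 : csz H (Quotient.mk'' x) ≤ 3 := by
    by_cases h : (Quotient.mk'' x : Quotient (orbitRel H Ω)) = q0
    · rw [h, hq0]
    · have := hq _ h; omega
  have h12 : (univ.filter fun y : Ω =>
      (Quotient.mk'' y : Quotient (orbitRel H Ω)) = Quotient.mk'' x).card = csz H (Quotient.mk'' x) := rfl
  omega

theorem card_le_two_mul (P : Subgroup G) (z z' : Ω) (h : ∀ g ∈ P, g • z = z ∨ g • z = z') :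
    Nat.card P ≤ 2 * Nat.card (P ⊓ stabilizer G z : Subgroup G) := by
  have h1 := MulAction.card_orbit_mul_card_stabilizer_eq_card_group P z
  have h2 : Fintype.card (orbit P z) ≤ 2 := by
    rw [← Set.toFinset_card]
    have h3 : (orbit P z).toFinset ⊆ {z, z'} := by
      intro w hw
      rw [Set.mem_toFinset, mem_orbit_iff] at hw
      obtain ⟨g, rfl⟩ := hw
      rw [mem_insert, mem_singleton]
      exact h g g.2
    exact (card_le_card h3).trans card_le_two
  have h3 : Fintype.card (stabilizer P z) = Nat.card (P ⊓ stabilizer G z : Subgroup G) := by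
    rw [← Nat.card_eq_fintype_card]
    refine Nat.card_congr ⟨fun g => ⟨g.1, g.1.2, g.2⟩, fun g => ⟨⟨g.1, g.2.1⟩, g.2.2⟩,
      fun _ => rfl, fun _ => rfl⟩
  rw [Nat.card_eq_fintype_card, ← h1, h3]
  exact Nat.mul_le_mul_right _ h2

/-- the stabilizer of `a` and of the pair `{z, z'}` -/
def Pr (G : Type*) [Group G] {Ω : Type*} [MulAction G Ω] (a z z' : Ω) : Subgroup G where
  carrier := {g | g • a = a ∧ ((g • z = z ∧ g • z' = z') ∨ (g • z = z' ∧ g • z' = z))}
  one_mem' := ⟨one_smul _ _, Or.inl ⟨one_smul _ _, one_smul _ _⟩⟩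
  mul_mem' := by
    rintro g k ⟨h1, h2⟩ ⟨h3, h4⟩
    refine ⟨by rw [mul_smul, h3, h1], ?_⟩
    rcases h2 with h2 | h2 <;> rcases h4 with h4 | h4
    · left; rw [mul_smul, mul_smul, h4.1, h4.2]; exact h2
    · right; rw [mul_smul, mul_smul, h4.1, h4.2]; exact ⟨h2.2, h2.1⟩
    · right; rw [mul_smul, mul_smul, h4.1, h4.2]; exact h2
    · left; rw [mul_smul, mul_smul, h4.1, h4.2]; exact ⟨h2.2, h2.1⟩
  inv_mem' := by
    rintro g ⟨h1, h2⟩
    refine ⟨by rw [inv_smul_eq_iff]; exact h1.symm, ?_⟩
    rcases h2 with h2 | h2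
    · left; rw [inv_smul_eq_iff, inv_smul_eq_iff]; exact ⟨h2.1.symm, h2.2.symm⟩
    · right; rw [inv_smul_eq_iff, inv_smul_eq_iff]; exact ⟨h2.2.symm, h2.1.symm⟩

theorem St_le_Pr (h2 : TwoTr G Ω) {a b c z z' : Ω} (hab : a ≠ b) (hac : a ≠ c) (hza : z ≠ a)
    (hb : St G a b ≤ Pr G a z z') (hc : St G a c ≤ Pr G a z z') (hne : St G a b ≠ St G a c) :
    z' ∈ Ln G a z := by
  have h1 : Nat.card (Pr G a z z') ≤ 2 * Nat.card (Pr G a z z' ⊓ stabilizer G z : Subgroup G) := by
    apply card_le_two_mul _ z z'
    rintro g ⟨_, h | h⟩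
    · left; exact h.1
    · right; exact h.1
  have h3 : Pr G a z z' ⊓ stabilizer G z ≤ St G a z := by
    intro g hg
    rw [mem_St]
    exact ⟨hg.1.1, hg.2⟩
  have h4 := card_St (G := G) h2 hab (Ne.symm hza)
  have h5 := card_St (G := G) h2 hab hac
  have h6 : 2 * Nat.card (St G a b) ≤ Nat.card (Pr G a z z') := by
    obtain ⟨m, hm⟩ := Subgroup.card_dvd_of_le hb
    have hpos : 0 < Nat.card (St G a b) := Nat.card_pos
    have hpos2 : 0 < Nat.card (Pr G a z z') := Nat.card_pos
    have hm2 : 2 ≤ m := by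
      by_contra hcon
      have hm1 : m = 0 ∨ m = 1 := by omega
      rcases hm1 with rfl | rfl
      · omega
      · apply hne
        rw [mul_one] at hm
        have e1 : St G a b = Pr G a z z' := Subgroup.eq_of_le_of_card_ge hb hm.le
        have e2 : St G a c = Pr G a z z' := Subgroup.eq_of_le_of_card_ge hc (by rw [hm, h5])
        rw [e1, e2]
    rw [hm, mul_comm]
    exact Nat.mul_le_mul_left _ hm2
  have h7 : Pr G a z z' ⊓ stabilizer G z = St G a z :=
    Subgroup.eq_of_le_of_card_ge h3 (by rw [h4]; omega)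
  rw [mem_Ln]
  intro g hg
  have hgz := (mem_St.mp hg).2
  rw [← h7] at hg
  rcases hg.1.2 with h | h
  · exact h.2
  · rw [h.2, ← h.1, hgz]

/-- If all orbits of the two-point stabilizers have size at most two, these stabilizers have order
at most two. -/
theorem card_St_le_two (h2 : TwoTr G Ω) {a b : Ω} (hab : a ≠ b)
    (hs : ∀ q : Quotient (orbitRel (St G a b) Ω), csz (St G a b) q ≤ 2) : Nat.card (St G a b) ≤ 2 := by
  by_contra hcon
  push Not at hcon
  -- the hypothesis for all pairs
  have hP : ∀ x y z : Ω, x ≠ y → ∀ g ∈ St G x y, ∀ k ∈ St G x y, g • z ≠ z → k • z ≠ z →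
      g • z = k • z := by
    intro x y z hxy g hg k hk h1 h3
    obtain ⟨t, ht1, ht2⟩ := h2 x y a b hxy hab
    have hm : ∀ g ∈ St G x y, t * g * t⁻¹ ∈ St G a b := by
      intro g hg
      rw [mem_St] at hg ⊢
      rw [← ht1, ← ht2]
      constructor
      · rw [mul_smul, mul_smul, inv_smul_smul, hg.1]
      · rw [mul_smul, mul_smul, inv_smul_smul, hg.2]
    by_contra hne
    have h4 : ({t • z, t • g • z, t • k • z} : Finset Ω).card = 3 := by
      rw [card_insert_of_notMem, card_insert_of_notMem, card_singleton]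
      · rw [mem_singleton]; exact fun h => hne (smul_left_cancel t h)
      · rw [mem_insert, mem_singleton, not_or]
        exact ⟨fun h => h1 (smul_left_cancel t h).symm, fun h => h3 (smul_left_cancel t h).symm⟩
    have h5 : ({t • z, t • g • z, t • k • z} : Finset Ω) ⊆ univ.filter fun w : Ω =>
        (Quotient.mk'' w : Quotient (orbitRel (St G a b) Ω)) = Quotient.mk'' (t • z) := by
      intro w hw
      rw [mem_insert, mem_insert, mem_singleton] at hw
      rw [mem_filter]
      refine ⟨mem_univ _, ?_⟩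
      rcases hw with rfl | rfl | rfl
      · rfl
      · apply mk_eq_iff.mpr
        exact ⟨t * g * t⁻¹, hm g hg, by rw [mul_smul, mul_smul, inv_smul_smul]⟩
      · apply mk_eq_iff.mpr
        exact ⟨t * k * t⁻¹, hm k hk, by rw [mul_smul, mul_smul, inv_smul_smul]⟩
    have h6 := card_le_card h5
    rw [h4] at h6
    have h7 := hs (Quotient.mk'' (t • z))
    rw [csz] at h7
    omega
  -- a moved point `c`
  have hnt : Nontrivial (St G a b) := Finite.one_lt_card_iff_nontrivial.mp (by omega)
  obtain ⟨⟨g0, hg0⟩, hg01⟩ := exists_ne (1 : St G a b)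
  have hg02 : g0 ≠ 1 := fun h => hg01 (Subtype.ext h)
  obtain ⟨c, hc⟩ := exists_moved (Ω := Ω) hg02
  have hca : c ≠ a := by rintro rfl; exact hc (mem_St.mp hg0).1
  have hcb : c ≠ b := by rintro rfl; exact hc (mem_St.mp hg0).2
  have h3 : Nat.card (St G a b) ≤ 2 * Nat.card (St G a b ⊓ stabilizer G c : Subgroup G) := by
    apply card_le_two_mul _ c (g0 • c)
    intro g hg
    by_cases h : g • c = c
    · left; exact h
    · right; exact hP a b c hab g hg g0 hg0 h hc
  have h4 : 1 < Nat.card (St G a b ⊓ stabilizer G c : Subgroup G) := by omega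
  have hnt2 : Nontrivial (St G a b ⊓ stabilizer G c : Subgroup G) :=
    Finite.one_lt_card_iff_nontrivial.mp h4
  obtain ⟨⟨k, hk⟩, hk1⟩ := exists_ne (1 : (St G a b ⊓ stabilizer G c : Subgroup G))
  have hk2 : k ≠ 1 := fun h => hk1 (Subtype.ext h)
  obtain ⟨hkab, hkc⟩ := Subgroup.mem_inf.mp hk
  rw [mem_stabilizer_iff] at hkc
  have hka := (mem_St.mp hkab).1
  have hkb := (mem_St.mp hkab).2
  obtain ⟨z, hz⟩ := exists_moved (Ω := Ω) hk2
  have hza : z ≠ a := by rintro rfl; exact hz hka
  have hzb : z ≠ b := by rintro rfl; exact hz hkb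
  -- all the stabilizers preserve `{z, k z}`
  have hpair : ∀ x y : Ω, x ≠ y → k • x = x → k • y = y → St G x y ≤ Pr G x z (k • z) := by
    intro x y hxy hx hy g hg
    have hkm : k ∈ St G x y := mem_St.mpr ⟨hx, hy⟩
    refine ⟨(mem_St.mp hg).1, ?_⟩
    by_cases h : g • z = z
    · left
      refine ⟨h, ?_⟩
      have h5 : (g * k) • z ≠ z := by
        rw [mul_smul]
        intro h6
        exact hz (smul_left_cancel g (h6.trans h.symm))
      have h6 := hP x y z hxy (g * k) (mul_mem hg hkm) k hkm h5 hz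
      rw [mul_smul] at h6
      exact h6
    · right
      have h5 := hP x y z hxy g hg k hkm h hz
      refine ⟨h5, ?_⟩
      by_contra h6
      have h7 : (g * k) • z ≠ z := by rw [mul_smul]; exact h6
      have h8 := hP x y z hxy (g * k) (mul_mem hg hkm) g hg h7 h
      rw [mul_smul] at h8
      exact hz (smul_left_cancel g h8)
  have hneab : St G a b ≠ St G a c := by
    intro h
    rw [h] at hg0
    exact hc (mem_St.mp hg0).2
  have hneba : St G b a ≠ St G b c := by
    intro h
    rw [St_symm a b] at hg0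
    rw [h] at hg0
    exact hc (mem_St.mp hg0).2
  have e1 : k • z ∈ Ln G a z :=
    St_le_Pr h2 hab (Ne.symm hca) hza (hpair a b hab hka hkb) (hpair a c (Ne.symm hca) hka hkc) hneab
  have e2 : k • z ∈ Ln G b z :=
    St_le_Pr h2 (Ne.symm hab) (Ne.symm hcb) hzb (hpair b a (Ne.symm hab) hkb hka)
      (hpair b c (Ne.symm hcb) hkb hkc) hneba
  have e3 := St_eq h2 (Ne.symm hza) (Ne.symm hz) (right_mem_Ln a z) e1
  have e4 := St_eq h2 (Ne.symm hzb) (Ne.symm hz) (right_mem_Ln b z) e2
  have e5 : b ∈ Ln G a z := by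
    rw [mem_Ln, e3, ← e4]
    exact mem_Ln.mp (left_mem_Ln b z)
  have e6 := St_eq h2 (Ne.symm hza) hab (left_mem_Ln a z) e5
  rw [← e6, mem_St] at hkab
  exact hz hkab.2

/-- degree seven, order 84 -/
theorem no_eighty_four (htr : IsPretransitive G Ω) {a b : Ω} (hn : Fintype.card Ω = 7)
    (hG : Nat.card G = 84) {t : G} (hta : t • a = a) (ht1 : t ≠ 1) (hf : fx Ω t = 3) : False := by
  have : Fact (Nat.Prime 7) := ⟨by norm_num⟩
  obtain ⟨P⟩ : Nonempty (Sylow 7 G) := inferInstance
  have hP7 : Nat.card P = 7 := by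
    have h1 := P.card_eq_multiplicity
    rw [hG] at h1
    rw [h1]
    have : Nat.factorization 84 7 = 1 := by
      rw [show (84 : ℕ) = 12 * 7 by norm_num, Nat.factorization_mul (by norm_num) (by norm_num)]
      simp only [Finsupp.coe_add, Pi.add_apply]
      rw [Nat.Prime.factorization_self (by norm_num),
        Nat.factorization_eq_zero_of_not_dvd (by norm_num)]
    rw [this]; norm_num
  have hidx : (P : Subgroup G).index = 12 := by
    have h1 := (P : Subgroup G).card_mul_index
    rw [hG, hP7] at h1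
    omega
  have hn1 : Nat.card (Sylow 7 G) = 1 := by
    have h1 := card_sylow_modEq_one 7 G
    have h2 := P.card_dvd_index
    rw [hidx] at h2
    have h3 : Nat.card (Sylow 7 G) ≤ 12 := Nat.le_of_dvd (by norm_num) h2
    have h4 : 0 < Nat.card (Sylow 7 G) := Nat.card_pos
    unfold Nat.ModEq at h1
    interval_cases h : Nat.card (Sylow 7 G) <;> simp_all
  have hPn : (P : Subgroup G).Normal := by
    have : Subsingleton (Sylow 7 G) := (Nat.card_eq_one_iff_unique.mp hn1).1
    exact Sylow.normal_of_subsingleton P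
  -- `P` is regular
  have hreg : ∀ g ∈ (P : Subgroup G), g ≠ 1 → ∀ x : Ω, g • x ≠ x := by
    intro g hg hg1 x hx
    -- all of `P` fixes `x`
    have h1 : (P : Subgroup G) ≤ stabilizer G x := by
      have h2 : Subgroup.zpowers g = (P : Subgroup G) := by
        apply Subgroup.eq_of_le_of_card_ge
        · rw [Subgroup.zpowers_le]; exact hg
        · have h3 : Nat.card (Subgroup.zpowers g) ∣ 7 := by
            rw [← hP7]; exact Subgroup.card_dvd_of_le (by rw [Subgroup.zpowers_le]; exact hg)
          rcases (Nat.dvd_prime (by norm_num)).mp h3 with h4 | h4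
          · exfalso
            rw [Subgroup.card_eq_one, Subgroup.zpowers_eq_bot] at h4
            exact hg1 h4
          · rw [h4]; exact hP7.le
      rw [← h2, Subgroup.zpowers_le]
      exact hx
    -- then, `P` being normal, it fixes everything
    apply hg1
    apply FaithfulSMul.eq_of_smul_eq_smul (α := Ω)
    intro y
    obtain ⟨k, rfl⟩ := htr.exists_smul_eq x y
    have h2 := h1 (hPn.conj_mem g hg k⁻¹)
    rw [inv_inv, mem_stabilizer_iff, mul_smul, mul_smul, inv_smul_eq_iff] at h2
    rw [h2, one_smul]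
  -- `p ↦ p • a` is a bijection
  have hbij : Function.Bijective (fun p : P => (p : G) • a) := by
    have hinj : Function.Injective (fun p : P => (p : G) • a) := by
      intro p q hpq
      have h1 : ((q : G)⁻¹ * p) • a = a := by
        rw [mul_smul, inv_smul_eq_iff]; exact hpq
      by_contra hne
      exact hreg _ (mul_mem (inv_mem q.2) p.2) (fun h => hne (by
        apply Subtype.ext
        rw [inv_mul_eq_one] at h
        exact h.symm)) a h1
    rw [Nat.bijective_iff_injective_and_card]
    refine ⟨hinj, ?_⟩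
    show Nat.card (P : Subgroup G) = Nat.card Ω
    rw [hP7, Nat.card_eq_fintype_card, hn]
  -- fixed points of `t` correspond to the centralizer of `t` in `P`
  have hcount : fx Ω t = ((Nat.card ((P : Subgroup G) ⊓ Subgroup.centralizer ({t} : Set G) : Subgroup G) : ℕ) : ℤ) := by
    rw [fx]
    norm_cast
    have h5 : Nat.card ((P : Subgroup G) ⊓ Subgroup.centralizer ({t} : Set G) : Subgroup G) =
        (univ.filter fun g : G => g ∈ (P : Subgroup G) ⊓ Subgroup.centralizer ({t} : Set G)).card := by
      rw [Nat.card_eq_fintype_card, Fintype.card_subtype]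
    rw [h5]
    symm
    apply card_bij (fun g _ => g • a)
    · intro g hg
      rw [mem_filter, Subgroup.mem_inf, Subgroup.mem_centralizer_singleton_iff] at hg
      rw [mem_filter]
      refine ⟨mem_univ _, ?_⟩
      rw [← mul_smul, ← hg.2.2, mul_smul, hta]
    · intro g hg k hk hgk
      rw [mem_filter, Subgroup.mem_inf] at hg hk
      have := hbij.1 (a₁ := ⟨g, hg.2.1⟩) (a₂ := ⟨k, hk.2.1⟩) hgk
      exact congrArg Subtype.val this
    · intro x hx
      rw [mem_filter] at hx
      obtain ⟨⟨p, hp⟩, rfl⟩ := hbij.2 x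
      refine ⟨p, ?_, rfl⟩
      rw [mem_filter, Subgroup.mem_inf, Subgroup.mem_centralizer_singleton_iff]
      refine ⟨mem_univ _, hp, ?_⟩
      have h6 : t * p * t⁻¹ ∈ (P : Subgroup G) := hPn.conj_mem p hp t
      have h7 := hbij.1 (a₁ := ⟨t * p * t⁻¹, h6⟩) (a₂ := ⟨p, hp⟩) (by
        show (t * p * t⁻¹) • a = p • a
        have h8 : t⁻¹ • a = a := by rw [inv_smul_eq_iff, hta]
        rw [mul_smul, mul_smul, h8]
        exact hx.2)
      have h8 : t * p * t⁻¹ = p := congrArg Subtype.val h7
      rw [mul_inv_eq_iff_eq_mul] at h8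
      exact h8.symm
  rw [hf] at hcount
  have h3 : Nat.card ((P : Subgroup G) ⊓ Subgroup.centralizer ({t} : Set G) : Subgroup G) = 3 := by
    exact_mod_cast hcount.symm
  have h4 := Subgroup.card_dvd_of_le (inf_le_left :
    (P : Subgroup G) ⊓ Subgroup.centralizer ({t} : Set G) ≤ P)
  rw [h3, hP7] at h4
  omega

end

end Cfsg.Agent.Lib.DerangeH9
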