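import Cfsg.Agent.Lib.DerangeH9c

/-!
# Derangements in transitive groups, IV (helper9)

`main`: a transitive group of degree `n ≥ 7` is sharply two-transitive or at least `2|G|/n` of its
elements are derangements.
-/

set_option autoImplicit false
set_option linter.unusedSectionVars false
set_option linter.unusedVariables false

namespace Cfsg.Agent.Lib.DerangeH9

open MulAction Finset

noncomputable section

open Classical

variable {G : Type*} [Group G] [Fintype G] {Ω : Type*} [MulAction G Ω] [Fintype Ω]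
  [FaithfulSMul G Ω]

theorem two_transitive (htr : IsPretransitive G Ω) (h2 : TwoTr G Ω) {a b : Ω} (hab : a ≠ b)
    (hn : 7 ≤ Fintype.card Ω) (hh : 2 ≤ Nat.card (St G a b)) :
    2 * (Nat.card G : ℤ) ≤ (Fintype.card Ω : ℤ) * ((univ.filter fun g : G => fx Ω g = 0).card : ℤ) := by
  by_contra hbad
  push Not at hbad
  have I2 := key htr h2 hab hh hbad
  have I1 := sum_bound (G := G) h2 hab
  have I3 := total (G := G) a b
  have I4 := card_Ln_bound (G := G) h2 hab hh
  have hGc := card_eq (G := G) h2 hab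
  have hD1 : ∀ q : Quotient (orbitRel (St G a b) Ω),
      csz (St G a b) q - 2 ≤ ∑ q : Quotient (orbitRel (St G a b) Ω), (csz (St G a b) q - 2) := by
    intro q
    exact single_le_sum (f := fun q : Quotient (orbitRel (St G a b) Ω) => csz (St G a b) q - 2)
      (fun _ _ => Nat.zero_le _) (mem_univ q)
  have hD2 : ∀ q q' : Quotient (orbitRel (St G a b) Ω), q ≠ q' →
      (csz (St G a b) q - 2) + (csz (St G a b) q' - 2) ≤
        ∑ q : Quotient (orbitRel (St G a b) Ω), (csz (St G a b) q - 2) := by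
    intro q q' hqq
    have h1 := sum_pair (f := fun q : Quotient (orbitRel (St G a b) Ω) => csz (St G a b) q - 2) hqq
    rw [← h1]
    exact sum_le_sum_of_subset (subset_univ _)
  have hF2 : 2 ≤ (Ln G a b).card := by
    rw [← card_pair hab]
    apply card_le_card
    intro z hz
    rw [mem_insert, mem_singleton] at hz
    rcases hz with rfl | rfl
    · exact left_mem_Ln _ _
    · exact right_mem_Ln _ _
  obtain ⟨F, hF⟩ : ∃ F, F = (Ln G a b).card := ⟨_, rfl⟩
  obtain ⟨n, hnn⟩ : ∃ n, n = Fintype.card Ω := ⟨_, rfl⟩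
  obtain ⟨h, hhh⟩ : ∃ h, h = Nat.card (St G a b) := ⟨_, rfl⟩
  obtain ⟨s, hs⟩ : ∃ s, s = Nat.card (Quotient (orbitRel (St G a b) Ω)) := ⟨_, rfl⟩
  obtain ⟨D, hD⟩ : ∃ D, D = ∑ q : Quotient (orbitRel (St G a b) Ω), (csz (St G a b) q - 2) := ⟨_, rfl⟩
  rw [← hD, ← hs, ← hF, ← hnn] at I3
  rw [← hF, ← hnn] at I4
  rw [← hF, ← hnn, ← hhh, ← hs] at I1
  rw [← hnn, ← hhh, ← hs] at I2
  rw [← hnn, ← hhh] at hGc
  rw [← hF] at hF2
  rw [← hnn] at hn
  rw [← hhh] at hh
  simp only [← hD] at hD1 hD2
  -- numerical part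
  have hn' : (7 : ℤ) ≤ n := by exact_mod_cast hn
  have hh' : (2 : ℤ) ≤ h := by exact_mod_cast hh
  have hF' : (2 : ℤ) ≤ F := by exact_mod_cast hF2
  have I3' : (n : ℤ) + F = 2 * s + D := by exact_mod_cast I3
  have J1 : (n : ℤ) * (h - 1) ^ 2 < (2 * h - 1) * (s * h - n) := by nlinarith
  have J2 : (n : ℤ) * (h - 1) ^ 2 * (F - 1) < (2 * h - 1) * ((s * h - n) * (F - 1)) := by
    rw [← mul_assoc]
    exact mul_lt_mul_of_pos_right J1 (by omega)
  have J3 : (2 * (h : ℤ) - 1) * ((s * h - n) * (F - 1)) ≤ (2 * h - 1) * ((h - 1) * (n - 1)) :=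
    mul_le_mul_of_nonneg_left I1 (by omega)
  have J4 : (h - 1 : ℤ) * (n * (h - 1) * (F - 1)) < (h - 1) * ((2 * h - 1) * (n - 1)) := by nlinarith
  have J5 : (n : ℤ) * (h - 1) * (F - 1) < (2 * h - 1) * (n - 1) :=
    lt_of_mul_lt_mul_left J4 (by omega)
  have hF4 : F < 4 := by
    by_contra hcon
    push Not at hcon
    have hc : (4 : ℤ) ≤ F := by exact_mod_cast hcon
    have h3 : (n : ℤ) * (h - 1) * 3 ≤ n * (h - 1) * (F - 1) := by
      apply mul_le_mul_of_nonneg_left (by omega)
      apply mul_nonneg <;> omega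
    nlinarith
  have hD' : D ≤ 1 := by
    by_contra hcon
    push Not at hcon
    have hc : (2 : ℤ) ≤ D := by exact_mod_cast hcon
    have hFF : F = 2 ∨ F = 3 := by omega
    rcases hFF with rfl | rfl
    · push_cast at *
      nlinarith
    · push_cast at *
      nlinarith
  by_cases hex : ∃ q0 : Quotient (orbitRel (St G a b) Ω), csz (St G a b) q0 = 3
  · obtain ⟨q0, hq0⟩ := hex
    apply no_three h2 hab (by omega) (St G a b) rfl q0 hq0
    intro q hq
    have := hD2 q q0 hq
    omega
  · push Not at hex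
    have hall : ∀ q : Quotient (orbitRel (St G a b) Ω), csz (St G a b) q ≤ 2 := by
      intro q
      have h3 := hD1 q
      have h4 := hex q
      omega
    have h3 := card_St_le_two h2 hab hall
    rw [← hhh] at h3
    have hh2 : h = 2 := by omega
    have hD0 : D = 0 := by
      rw [hD]
      apply sum_eq_zero
      intro q _
      have := hall q
      omega
    subst hh2
    rw [hD0] at I3
    have hFF : F = 3 := by
      have hc : F = 2 ∨ F = 3 := by omega
      rcases hc with rfl | rfl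
      · exfalso; push_cast at *; omega
      · rfl
    subst hFF
    have hn7 : n = 7 := by push_cast at *; omega
    subst hn7
    have hG84 : Nat.card G = 84 := by
      have : (Nat.card G : ℤ) = 84 := by rw [hGc]; norm_num
      exact_mod_cast this
    have hnt : Nontrivial (St G a b) := Finite.one_lt_card_iff_nontrivial.mp (by omega)
    obtain ⟨⟨g, hg⟩, hg1⟩ := exists_ne (1 : St G a b)
    have hg2 : g ≠ 1 := fun h => hg1 (Subtype.ext h)
    have h5 := fx_bound h2 hab hg2
    rw [← hF, ← hnn] at h5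
    have h6 : ((Ln G a b).card : ℤ) ≤ fx Ω g := by
      rw [fx]
      norm_cast
      apply card_le_card
      intro z hz
      rw [mem_filter]
      exact ⟨mem_univ _, mem_Ln.mp hz g hg⟩
    rw [← hF] at h6
    have h7 : fx Ω g = 3 := by push_cast at *; omega
    exact no_eighty_four htr (a := a) (b := b) hnn.symm hG84 (mem_St.mp hg).1 hg2 h7

/-- sharply two-transitive groups -/
theorem sharply (htr : IsPretransitive G Ω) (h2 : TwoTr G Ω) {a b : Ω} (hab : a ≠ b)
    (hn : 7 ≤ Fintype.card Ω) (hh : Nat.card (St G a b) ≤ 1) :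
    (∃ g : G, g ≠ 1 ∧ ∃ ω : Ω, g • ω = ω) ∧ (∀ g : G, g ≠ 1 → fx Ω g ≤ 1) ∧
      (Nat.card G : ℤ) = (Fintype.card Ω : ℤ) * ((Fintype.card Ω : ℤ) - 1) ∧
      (Fintype.card Ω : ℤ) * ((univ.filter fun g : G => fx Ω g = 0).card : ℤ) = Nat.card G := by
  have : Nonempty Ω := ⟨a⟩
  have hh1 : Nat.card (St G a b) = 1 := by
    have : 0 < Nat.card (St G a b) := Nat.card_pos
    omega
  have hle : ∀ g : G, g ≠ 1 → fx Ω g ≤ 1 := by
    intro g hg
    by_contra hcon
    push Not at hcon
    rw [fx] at hcon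
    have h3 : 1 < (univ.filter fun x : Ω => g • x = x).card := by exact_mod_cast hcon
    rw [one_lt_card] at h3
    obtain ⟨x, hx, y, hy, hxy⟩ := h3
    rw [mem_filter] at hx hy
    have h4 := card_St (G := G) h2 hab hxy
    rw [hh1, Subgroup.card_eq_one] at h4
    have h5 : g ∈ St G x y := mem_St.mpr ⟨hx.2, hy.2⟩
    rw [h4, Subgroup.mem_bot] at h5
    exact hg h5
  refine ⟨?_, hle, ?_, ?_⟩
  · obtain ⟨c, hc⟩ : ∃ c : Ω, c ∉ ({a, b} : Finset Ω) := by
      by_contra hcon
      push Not at hcon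
      have h5 : (univ : Finset Ω) ⊆ {a, b} := fun w _ => hcon w
      have h6 := card_le_card h5
      have h7 : ({a, b} : Finset Ω).card ≤ 2 := Finset.card_le_two
      rw [card_univ] at h6
      omega
    simp only [mem_insert, mem_singleton, not_or] at hc
    obtain ⟨g, hg1, hg2⟩ := h2 a b a c hab (Ne.symm hc.1)
    refine ⟨g, ?_, a, hg1⟩
    rintro rfl
    rw [one_smul] at hg2
    exact hc.2 hg2.symm
  · rw [card_eq h2 hab, hh1]; simp
  · have e1 : ∑ g : G, (fx Ω g - 1) = 0 := by
      rw [sum_sub_distrib, sum_fx htr, sum_const, card_univ, nsmul_eq_mul, Nat.card_eq_fintype_card]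
      ring
    have e2 : ∑ g : G, (fx Ω g - 1) = ((Fintype.card Ω : ℤ) - 1) -
        ((univ.filter fun g : G => fx Ω g = 0).card : ℤ) := by
      rw [← add_sum_erase univ _ (mem_univ (1 : G)), fx_one, sub_eq_add_neg]
      congr 1
      have h3 : ((univ.filter fun g : G => fx Ω g = 0).card : ℤ) =
          ∑ g ∈ univ.erase (1 : G), (if fx Ω g = 0 then (1 : ℤ) else 0) := by
        rw [card_filter]
        push_cast
        rw [← add_sum_erase univ _ (mem_univ (1 : G)), fx_one, if_neg, zero_add]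
        omega
      rw [h3, ← sum_neg_distrib]
      apply sum_congr rfl
      intro g hg
      rw [mem_erase] at hg
      have h4 := hle g hg.1
      have h5 := fx_nonneg (Ω := Ω) g
      split_ifs with h6
      · rw [h6]; ring
      · omega
    rw [e1] at e2
    have h6 := card_eq (G := G) h2 hab
    rw [hh1] at h6
    rw [h6]
    have h7 : ((univ.filter fun g : G => fx Ω g = 0).card : ℤ) = (Fintype.card Ω : ℤ) - 1 := by linarith
    rw [h7]; push_cast; ring

end

/-- S5730 -/
theorem main {G Ω : Type*} [Group G] [Finite G] [MulAction G Ω] [FaithfulSMul G Ω] [Fintype Ω]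
    (htr : MulAction.IsPretransitive G Ω) (hn : 7 ≤ Fintype.card Ω) :
    (∃ a : ℕ, (a = 1 ∨ a = 2) ∧ (MulAction.IsPretransitive G Ω ∧
      (∃ g : G, g ≠ 1 ∧ ∃ ω : Ω, g • ω = ω) ∧
      ∀ g : G, g ≠ 1 → Nat.card (MulAction.fixedBy Ω g) ≤ 1) ∧
      a * Nat.card G = Fintype.card Ω * (Fintype.card Ω - 1) ∧
      Fintype.card Ω * Nat.card {g : G // ∀ ω : Ω, g • ω ≠ ω} = a * Nat.card G) ∨
    2 * Nat.card G ≤ Fintype.card Ω * Nat.card {g : G // ∀ ω : Ω, g • ω ≠ ω} := by
  classical
  have : Fintype G := Fintype.ofFinite G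
  have hd : ∀ g : G, fx Ω g = 0 ↔ ∀ ω : Ω, g • ω ≠ ω := by
    intro g
    rw [fx, Nat.cast_eq_zero, card_eq_zero, filter_eq_empty_iff]
    simp
  have hder : ((univ.filter fun g : G => fx Ω g = 0).card : ℤ) =
      (Nat.card {g : G // ∀ ω : Ω, g • ω ≠ ω} : ℤ) := by
    rw [← Fintype.card_subtype, ← Nat.card_eq_fintype_card]
    norm_cast
    apply Nat.card_congr
    exact Equiv.subtypeEquivRight hd
  have hne : Nonempty Ω := Fintype.card_pos_iff.mp (by omega)
  by_cases h2 : TwoTr G Ω
  · have hnt : Nontrivial Ω := Fintype.one_lt_card_iff_nontrivial.mp (by omega)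
    obtain ⟨a, b, hab⟩ := exists_pair_ne Ω
    rcases Nat.lt_or_ge 1 (Nat.card (St G a b)) with hh | hh
    · right
      have h3 := two_transitive htr h2 hab hn hh
      rw [hder] at h3
      exact_mod_cast h3
    · left
      obtain ⟨h3, h4, h5, h6⟩ := sharply htr h2 hab hn hh
      refine ⟨1, Or.inl rfl, ⟨htr, h3, ?_⟩, ?_, ?_⟩
      · intro g hg
        have h7 := h4 g hg
        have h8 : fx Ω g = (Nat.card (MulAction.fixedBy Ω g) : ℤ) := by
          rw [fx, Nat.card_eq_fintype_card, Fintype.card_subtype]; rfl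
        rw [h8] at h7
        exact_mod_cast h7
      · have h9 : 1 ≤ Fintype.card Ω := by omega
        zify [h9]
        rw [h5]; ring
      · rw [hder] at h6
        rw [one_mul]
        exact_mod_cast h6
  · right
    have h3 := der_ge (G := G) (Ω := Ω) htr
    have h4 := three_le_of_not_twoTr (G := G) htr h2
    rw [hder] at h3
    have h5 : (3 : ℤ) ≤ (Nat.card (Quotient (MulAction.orbitRel (⊤ : Subgroup G) (Ω × Ω))) : ℤ) := by
      exact_mod_cast h4
    have h6 : (2 : ℤ) * Nat.card G ≤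
        ((Nat.card (Quotient (MulAction.orbitRel (⊤ : Subgroup G) (Ω × Ω))) : ℤ) - 1) * Nat.card G := by
      apply mul_le_mul_of_nonneg_right
      · linarith
      · positivity
    exact_mod_cast h6.trans h3

end Cfsg.Agent.Lib.DerangeH9
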