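import Mathlib

/-! Dihedral groups are B-groups, part 1: the group ring of `ℤ/n` and powers. -/

set_option linter.unusedSectionVars false
set_option linter.unusedSimpArgs false

namespace Cfsg.Agent.Lib.DihB

open Finset

/-- The integral group ring of `ℤ/n`. -/
abbrev AA (n : ℕ) := AddMonoidAlgebra ℤ (ZMod n)

section AA

variable {n : ℕ} [NeZero n]

/-- The element with given coefficients. -/
noncomputable def mk (f : ZMod n → ℤ) : AA n := ∑ i, AddMonoidAlgebra.single i (f i)

theorem coeff_sum' {ι : Type*} (s : Finset ι) (F : ι → AA n) (i : ZMod n) :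
    (∑ j ∈ s, F j).coeff i = ∑ j ∈ s, (F j).coeff i := by
  classical
  induction s using Finset.induction_on with
  | empty => simp
  | insert a s ha ih => rw [sum_insert ha, sum_insert ha, AddMonoidAlgebra.coeff_add]; simp [ih]

@[simp] theorem coeff_mk (f : ZMod n → ℤ) (i : ZMod n) : (mk f).coeff i = f i := by
  classical
  rw [mk, coeff_sum']
  simp [AddMonoidAlgebra.coeff_single, Finsupp.single_apply]

theorem extA {a b : AA n} (h : ∀ i, a.coeff i = b.coeff i) : a = b := by
  ext i
  exact h i

theorem mk_coeff (a : AA n) : mk (fun i => a.coeff i) = a := extA fun i => by simp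

theorem coeff_mulA (a b : AA n) (k : ZMod n) :
    (a * b).coeff k = ∑ i, a.coeff i * b.coeff (k - i) := by
  rw [AddMonoidAlgebra.coeff_mul_apply_left, Finsupp.sum_fintype]
  · refine sum_congr rfl fun i _ => ?_
    congr 2
    ring
  · intro i; simp

theorem coeff_oneA (i : ZMod n) : (1 : AA n).coeff i = if i = 0 then 1 else 0 := by
  rw [AddMonoidAlgebra.one_def, AddMonoidAlgebra.coeff_single, Finsupp.single_apply]
  simp [eq_comm]

theorem coeff_intCast (c : ℤ) (i : ZMod n) : ((c : AA n)).coeff i = if i = 0 then c else 0 := by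
  rw [AddMonoidAlgebra.intCast_def, AddMonoidAlgebra.coeff_single, Finsupp.single_apply]
  simp [eq_comm]

theorem coeff_intMul (c : ℤ) (a : AA n) (i : ZMod n) : ((c : AA n) * a).coeff i = c * a.coeff i := by
  rw [coeff_mulA, sum_eq_single 0]
  · rw [coeff_intCast, if_pos rfl, sub_zero]
  · intro j _ hj
    rw [coeff_intCast, if_neg hj, zero_mul]
  · simp

theorem coeff_natMul (c : ℕ) (a : AA n) (i : ZMod n) : ((c : AA n) * a).coeff i = c * a.coeff i := by
  have := coeff_intMul (c : ℤ) a i
  simpa using this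

/-- divisibility by an integer is coefficientwise -/
theorem dvd_iffA (c : ℤ) (a : AA n) : ((c : AA n) ∣ a) ↔ ∀ i, c ∣ a.coeff i := by
  constructor
  · rintro ⟨b, rfl⟩ i
    rw [coeff_intMul]
    exact dvd_mul_right _ _
  · intro h
    choose g hg using h
    exact ⟨mk g, extA fun i => by rw [coeff_intMul, coeff_mk, hg i]⟩

theorem dvd_natA (c : ℕ) (a : AA n) : ((c : AA n) ∣ a) ↔ ∀ i, (c : ℤ) ∣ a.coeff i := by
  have := dvd_iffA (c : ℤ) a
  simpa using this

/-- The ring endomorphism induced by multiplication by `k` on `ℤ/n`. -/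
noncomputable def psi (k : ℕ) : AA n →+* AA n :=
  AddMonoidAlgebra.mapDomainRingHom ℤ (nsmulAddMonoidHom k : ZMod n →+ ZMod n)

theorem psi_single (k : ℕ) (i : ZMod n) (c : ℤ) :
    psi k (AddMonoidAlgebra.single i c) = AddMonoidAlgebra.single (k • i) c := by
  simp [psi]

theorem psi_mk (k : ℕ) (f : ZMod n → ℤ) :
    psi k (mk f) = ∑ i, AddMonoidAlgebra.single (k • i) (f i) := by
  rw [mk, map_sum]
  exact sum_congr rfl fun i _ => psi_single k i (f i)

open Classical in
theorem coeff_psi (k : ℕ) (a : AA n) (x : ZMod n) :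
    (psi k a).coeff x = ∑ j ∈ univ.filter (fun j : ZMod n => k • j = x), a.coeff j := by
  conv_lhs => rw [← mk_coeff a, psi_mk, coeff_sum']
  rw [sum_filter]
  refine sum_congr rfl fun j _ => ?_
  rw [AddMonoidAlgebra.coeff_single, Finsupp.single_apply]

theorem fermat_pow {p : ℕ} [Fact p.Prime] (c : ℤ) (k : ℕ) : (p : ℤ) ∣ c ^ p ^ k - c := by
  rw [← ZMod.intCast_zmod_eq_zero_iff_dvd]
  push_cast
  rw [ZMod.pow_card_pow, sub_self]

/-- Frobenius congruence in the group ring. -/
theorem frob {p : ℕ} [Fact p.Prime] (a : AA n) (k : ℕ) : ((p : AA n)) ∣ a ^ p ^ k - psi (p ^ k) a := by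
  classical
  have hp := (Fact.out : p.Prime)
  have key : ∀ s : Finset (ZMod n), ∀ f : ZMod n → ℤ,
      (p : AA n) ∣ (∑ i ∈ s, AddMonoidAlgebra.single i (f i)) ^ p ^ k -
        psi (p ^ k) (∑ i ∈ s, AddMonoidAlgebra.single i (f i) : AA n) := by
    intro s f
    induction s using Finset.induction_on with
    | empty =>
      rw [sum_empty, map_zero, zero_pow (pow_ne_zero _ hp.ne_zero), sub_zero]
      exact dvd_zero _
    | insert i s hi ih =>
      rw [sum_insert hi, map_add, psi_single]
      obtain ⟨r, hr⟩ := exists_add_pow_prime_pow_eq hp (AddMonoidAlgebra.single i (f i) : AA n)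
        (∑ i ∈ s, AddMonoidAlgebra.single i (f i)) k
      rw [hr]
      have h1 : (p : AA n) ∣ (AddMonoidAlgebra.single i (f i) : AA n) ^ p ^ k -
          AddMonoidAlgebra.single (p ^ k • i) (f i) := by
        rw [AddMonoidAlgebra.single_pow]
        have : (AddMonoidAlgebra.single (p ^ k • i) (f i ^ p ^ k) : AA n) -
            AddMonoidAlgebra.single (p ^ k • i) (f i) =
            AddMonoidAlgebra.single (p ^ k • i) (f i ^ p ^ k - f i) := by
          rw [AddMonoidAlgebra.single_sub]
        rw [this, dvd_natA]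
        intro j
        rw [AddMonoidAlgebra.coeff_single, Finsupp.single_apply]
        split_ifs
        · exact fermat_pow _ _
        · exact dvd_zero _
      have e : (AddMonoidAlgebra.single i (f i) : AA n) ^ p ^ k +
          (∑ i ∈ s, AddMonoidAlgebra.single i (f i)) ^ p ^ k +
          p * AddMonoidAlgebra.single i (f i) * (∑ i ∈ s, AddMonoidAlgebra.single i (f i)) * r -
          (AddMonoidAlgebra.single (p ^ k • i) (f i) +
            psi (p ^ k) (∑ i ∈ s, AddMonoidAlgebra.single i (f i))) =
          ((AddMonoidAlgebra.single i (f i) : AA n) ^ p ^ k -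
            AddMonoidAlgebra.single (p ^ k • i) (f i)) +
          ((∑ i ∈ s, AddMonoidAlgebra.single i (f i)) ^ p ^ k -
            psi (p ^ k) (∑ i ∈ s, AddMonoidAlgebra.single i (f i) : AA n)) +
          p * (AddMonoidAlgebra.single i (f i) * (∑ i ∈ s, AddMonoidAlgebra.single i (f i)) * r) := by
        ring
      rw [e]
      exact dvd_add (dvd_add h1 ih) (dvd_mul_right _ _)
  have := key univ (fun i => a.coeff i)
  rwa [show (∑ i, AddMonoidAlgebra.single i (a.coeff i) : AA n) = a from mk_coeff a] at this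

end AA

end Cfsg.Agent.Lib.DihB
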