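import Cfsg.Agent.Lib.DihB9

/-! Dihedral groups are B-groups, part 10: powers of two. -/

set_option linter.unusedSectionVars false
set_option linter.unusedSimpArgs false

namespace Cfsg.Agent.Lib.DihB

open Finset

theorem num2 {n h1 h2 κ c η : ℤ} (e1 : h1 ^ 2 + h2 ^ 2 = κ + n * c) (e2 : 2 * (h1 * h2) = n * c)
    (e3 : h1 + h2 = κ + c) (b1 : 2 ≤ h1) (b1' : h1 ≤ n - 1) (b2 : 1 ≤ h2) (b2' : h2 ≤ n - 1)
    (hη : η = 0 ∨ η = 1) (hcube : (h1 - η * n) ^ 3 = κ * (h1 - η * n)) :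
    n = 8 ∧ h1 = 2 + 4 * η ∧ h2 = 4 ∧ c = 2 + 4 * η := by
  have hk : κ = (h1 - h2) ^ 2 := by linear_combination -e1 + e2
  rcases hη with rfl | rfl
  · have hne : h1 - 0 * n ≠ 0 := by
      intro h; omega
    have h3 : (h1 - 0 * n) ^ 2 = κ := mul_right_cancel₀ hne (by linear_combination hcube)
    have h4 : h2 * (h2 - 2 * h1) = 0 := by linear_combination -hk - h3
    have h5 : h2 = 2 * h1 := by
      rcases mul_eq_zero.1 h4 with h | h
      · omega
      · linarith
    subst h5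
    have h6 : c = 3 * h1 - h1 ^ 2 := by linear_combination -e3 + h3
    subst h6
    have h7 : h1 * (4 * h1) = h1 * (n * (3 - h1)) := by linear_combination e2
    have h8 := mul_left_cancel₀ (by omega : h1 ≠ 0) h7
    have h9 : h1 ≤ 2 := by
      by_contra hcon
      push Not at hcon
      have : n * (3 - h1) ≤ 0 := mul_nonpos_of_nonneg_of_nonpos (by omega) (by omega)
      omega
    have h10 : h1 = 2 := by omega
    subst h10
    refine ⟨by omega, by norm_num, by norm_num, by norm_num⟩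
  · have hne : h1 - 1 * n ≠ 0 := by
      intro h; omega
    have h3 : (h1 - 1 * n) ^ 2 = κ := mul_right_cancel₀ hne (by linear_combination hcube)
    have h4 : (n - h2) * (n - 2 * h1 + h2) = 0 := by linear_combination hk + h3
    have h5 : h2 = 2 * h1 - n := by
      rcases mul_eq_zero.1 h4 with h | h
      · omega
      · linarith
    obtain ⟨s, rfl⟩ : ∃ s, h1 = n - s := ⟨n - h1, by ring⟩
    have h5' : h2 = n - 2 * s := by linarith
    subst h5'
    have hks : κ = s ^ 2 := by linear_combination -h3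
    subst hks
    have h6 : c = 2 * n - 3 * s - s ^ 2 := by linarith
    subst h6
    have h7 : s * (4 * s) = s * (n * (3 - s)) := by linear_combination e2
    have h8 := mul_left_cancel₀ (by omega : s ≠ 0) h7
    have h9 : s ≤ 2 := by
      by_contra hcon
      push Not at hcon
      have : n * (3 - s) ≤ 0 := mul_nonpos_of_nonneg_of_nonpos (by omega) (by omega)
      omega
    have h10 : s = 2 := by
      by_contra hcon
      have h11 : s = 1 := by omega
      subst h11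
      omega
    subst h10
    have h11 : n = 8 := by omega
    subst h11
    refine ⟨rfl, by norm_num, by norm_num, by norm_num⟩

section sign

variable {n : ℕ} [NeZero n]

/-- the sign character -/
def ep (i : ZMod n) : ℤ := (-1) ^ i.val

theorem ep_add (hn : 2 ∣ n) (i j : ZMod n) : ep (i + j) = ep i * ep j := by
  unfold ep
  rw [← pow_add, neg_one_pow_eq_pow_mod_two, neg_one_pow_eq_pow_mod_two (n := i.val + j.val), ZMod.val_add,
    Nat.mod_mod_of_dvd _ hn]

theorem ep_sq (i : ZMod n) : ep i * ep i = 1 := by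
  unfold ep
  rw [← pow_add, ← two_mul, pow_mul]
  simp

theorem ep_cases (i : ZMod n) : ep i = 1 ∨ ep i = -1 := by
  unfold ep
  exact neg_one_pow_eq_or ℤ _

theorem ep_one (hn2 : 2 ≤ n) : ep (1 : ZMod n) = -1 := by
  unfold ep
  have : Fact (1 < n) := ⟨by omega⟩
  rw [ZMod.val_one]; norm_num

theorem sum_ep (hn2 : 2 ≤ n) (hn : 2 ∣ n) : ∑ i : ZMod n, ep i = 0 := by
  have h := Equiv.sum_comp (Equiv.addRight (1 : ZMod n)) (fun i => ep i)
  simp only [Equiv.coe_addRight, ep_add hn, ep_one hn2] at h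
  rw [← sum_mul] at h
  linarith

/-- the sign homomorphism -/
noncomputable def chi (a : AA n) : ℤ := ∑ i, a.coeff i * ep i

theorem chi_add (a b : AA n) : chi (a + b) = chi a + chi b := by
  simp only [chi, AddMonoidAlgebra.coeff_add, Finsupp.add_apply, add_mul, sum_add_distrib]

theorem chi_mul (hn : 2 ∣ n) (a b : AA n) : chi (a * b) = chi a * chi b := by
  simp only [chi, coeff_mulA, sum_mul]
  rw [sum_comm]
  refine sum_congr rfl fun i _ => ?_
  rw [mul_sum, ← Equiv.sum_comp (Equiv.addRight i)]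
  refine sum_congr rfl fun k _ => ?_
  simp only [Equiv.coe_addRight, add_sub_cancel_right]
  rw [ep_add hn]; ring

theorem chi_intCast (c : ℤ) : chi (c : AA n) = c := by
  simp only [chi, coeff_intCast]
  rw [sum_eq_single 0]
  · simp [ep]
  · intro b _ hb; simp [hb]
  · simp

theorem chi_mk (f : ZMod n → ℤ) : chi (mk f) = ∑ i, f i * ep i := by
  simp [chi]

theorem chi_JJ (hn2 : 2 ≤ n) (hn : 2 ∣ n) : chi (JJ : AA n) = 0 := by
  rw [JJ, chi_mk]
  simp only [one_mul]
  exact sum_ep hn2 hn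

end sign

theorem eight_contra {v : ZMod 8 → ℤ} (h01 : ∀ i, v i = 0 ∨ v i = 1)
    (hs : v 0 + v 1 + v 2 + v 3 + v 4 + v 5 + v 6 + v 7 = 4)
    (h4 : v 0 * v 4 + v 1 * v 5 + v 2 * v 6 + v 3 * v 7 + v 4 * v 0 + v 5 * v 1 + v 6 * v 2 + v 7 * v 3 = 0)
    (h1 : v 0 * v 1 + v 1 * v 2 + v 2 * v 3 + v 3 * v 4 + v 4 * v 5 + v 5 * v 6 + v 6 * v 7 + v 7 * v 0 = 2) :
    False := by
  rcases h01 0 with a0 | a0 <;> rcases h01 1 with a1 | a1 <;> rcases h01 2 with a2 | a2 <;>
    rcases h01 3 with a3 | a3 <;> rcases h01 4 with a4 | a4 <;> rcases h01 5 with a5 | a5 <;>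
    rcases h01 6 with a6 | a6 <;> rcases h01 7 with a7 | a7 <;>
    simp only [a0, a1, a2, a3, a4, a5, a6, a7] at hs h4 h1 <;> omega

theorem sum8 (F : ZMod 8 → ℤ) : ∑ i, F i = F 0 + F 1 + F 2 + F 3 + F 4 + F 5 + F 6 + F 7 :=
  Fin.sum_univ_eight F

namespace SR

variable {n : ℕ} [NeZero n] (S : SR n)

theorem two_triv {a : ℕ} (hn : n = 2 ^ a) (ha : 1 ≤ a) (hr : S.Rat') {x y : DihedralGroup n}
    (hx : x ≠ 1) (hy : y ≠ 1) : S.rel x y := by
  have : Fact (Nat.Prime 2) := ⟨Nat.prime_two⟩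
  have hpn : 2 ∣ n := by rw [hn]; exact dvd_pow_self 2 (by omega)
  have hn2 : 2 ≤ n := Nat.le_of_dvd (NeZero.pos n) hpn
  obtain ⟨t0, ht0, ht00⟩ := exists_g (n := n) hpn
  suffices h : ∀ d, d ≠ 1 → S.rel (.r t0) d from S.eqv.trans (S.eqv.symm (h x hx)) (h y hy)
  intro d hd
  by_contra hcon
  have hP := S.P1_even hn hr
  obtain ⟨κ, c, hc⟩ := S.HH_sq hr hP ht0 ht00
  have hRI := S.HH_RI hr hP ht0 ht00
  obtain ⟨e1, e2, e3, -⟩ := S.core hpn S.HH_inv (S.HH_01 ht00) hRI hc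
  have hnn : ∀ d, 0 ≤ S.HH t0 d := by
    intro d
    rcases S.HH_01 ht00 d with h | h <;> rw [h]
    norm_num
  have hle : ∀ d, S.HH t0 d ≤ 1 := by
    intro d
    rcases S.HH_01 ht00 d with h | h <;> rw [h]
    norm_num
  have hlt : ∀ (F : ZMod n → ℤ), (∀ i, F i ≤ 1) → (∃ i, F i = 0) → ∑ i, F i ≤ n - 1 := by
    intro F hF ⟨i, hi⟩
    have : ∑ i, F i < ∑ _i : ZMod n, (1 : ℤ) := sum_lt_sum (fun i _ => hF i) ⟨i, mem_univ _, by rw [hi]; norm_num⟩
    rw [sum_const, card_univ, ZMod.card] at this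
    simp only [nsmul_eq_mul, mul_one] at this
    omega
  have b1 : 2 ≤ ∑ i, S.HH t0 (.r i) := by
    have := sum_le_sum_of_subset_of_nonneg (f := fun i => S.HH t0 (.r i)) (subset_univ ({0, t0} : Finset (ZMod n)))
      (fun i _ _ => hnn _)
    rw [sum_pair (Ne.symm ht00), S.HH_P1 hr ht0 ht00 (smul_zero _), S.HH_P1 hr ht0 ht00 ht0] at this
    simpa using this
  have b1' : ∑ i, S.HH t0 (.r i) ≤ n - 1 := by
    apply hlt _ (fun i => hle _)
    obtain ⟨i, hi, hi2⟩ := S.exists_rot hn2 hd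
    refine ⟨i, S.HH_nrel (fun h => hi (r_eq_one.1 h)) (fun h => hcon (S.eqv.trans h (S.eqv.symm hi2)))⟩
  have b2 : 1 ≤ ∑ i, S.HH t0 (.sr i) := by
    obtain ⟨j, hj⟩ := S.exists_refl (x := .r t0) (fun h => ht00 (r_eq_one.1 h))
    have := single_le_sum (f := fun i => S.HH t0 (.sr i)) (fun i _ => hnn _) (mem_univ j)
    rwa [S.HH_rel ht00 hj] at this
  have b2' : ∑ i, S.HH t0 (.sr i) ≤ n - 1 := by
    apply hlt _ (fun i => hle _)
    obtain ⟨i, hi⟩ := S.exists_refl hd
    exact ⟨i, S.HH_nrel (sr_ne_one i) (fun h => hcon (S.eqv.trans h (S.eqv.symm hi)))⟩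
  -- odd elements
  have hodd : ∀ i : ZMod n, ep i = -1 → S.HH t0 (.r i) = S.HH t0 (.r 1) := by
    intro i hi
    unfold ep at hi
    have h1 : Odd i.val := by
      rcases Nat.even_or_odd i.val with h | h
      · rw [h.neg_one_pow] at hi; norm_num at hi
      · exact h
    have h2 : i = i.val • (1 : ZMod n) := by simp
    have h3 : i.val.Coprime (addOrderOf (1 : ZMod n)) := by
      rw [ZMod.addOrderOf_one]
      generalize i.val = w at h1
      rw [hn]
      exact Nat.Coprime.pow_right _ (Nat.coprime_two_right.2 h1)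
    have h4 := hr 1 i.val h3
    rw [← h2] at h4
    exact (S.HH_inv _ _ h4).symm
  have hchi : chi (DihB.mk (fun i => S.HH t0 (.r i)) : AA n) = ∑ i, S.HH t0 (.r i) - S.HH t0 (.r 1) * n := by
    rw [chi_mk]
    have h1 : ∀ i : ZMod n, S.HH t0 (.r i) * ep i = S.HH t0 (.r i) - S.HH t0 (.r 1) * (1 - ep i) := by
      intro i
      rcases ep_cases i with h | h
      · rw [h]; ring
      · rw [hodd i h, h]; ring
    rw [sum_congr rfl (fun i _ => h1 i), sum_sub_distrib, ← mul_sum, sum_sub_distrib, sum_ep hn2 hpn, sum_const,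
      card_univ, ZMod.card]
    simp
  have hcube := congrArg chi (cube_eq (S.sy S.HH_inv) hc)
  rw [show (2 : AA n) = ((2 : ℤ) : AA n) by norm_cast, chi_mul hpn, chi_mul hpn, chi_mul hpn, chi_add,
    chi_mul hpn, chi_mul hpn, chi_JJ hn2 hpn, chi_intCast, chi_intCast, hchi] at hcube
  obtain ⟨hn8, hh1, hh2, hcc⟩ := num2 e1 e2 e3 b1 b1' b2 b2' (S.HH_01 ht00 (.r 1))
    (by linarith [show ∀ X : ℤ, X ^ 3 = X * (X * X) from fun X => by ring])
  have hn8' : n = 8 := by exact_mod_cast hn8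
  subst hn8'
  rw [sum8] at hh1 hh2
  have v0 : S.HH t0 (.r 0) = 1 := S.HH_P1 hr ht0 ht00 (smul_zero _)
  have v4 : S.HH t0 (.r 4) = 1 := S.HH_P1 hr ht0 ht00 (by decide)
  have v3 : S.HH t0 (.r 3) = S.HH t0 (.r 1) := hodd 3 (by decide)
  have v5 : S.HH t0 (.r 5) = S.HH t0 (.r 1) := hodd 5 (by decide)
  have v7 : S.HH t0 (.r 7) = S.HH t0 (.r 1) := hodd 7 (by decide)
  have v26 : S.HH t0 (.r 6) = S.HH t0 (.r 2) := by
    have := S.inv_inv' (S.HH_inv (t0 := t0)) (.r 2)
    rw [DihedralGroup.inv_r] at this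
    exact this
  rw [v0, v4, v3, v5, v7, v26] at hh1
  have v2 : S.HH t0 (.r 2) = 0 := by linarith
  rw [v2] at v26
  have k4 := congrFun hc (.r 4)
  have k1 := congrFun hc (.r 1)
  rw [conv_r, sum8, sum8] at k4 k1
  simp only [Pi.add_apply, Pi.smul_apply, delta_r, smul_eq_mul, mul_one, if_neg (show ¬ (4 : ZMod 8) = 0 by decide),
    if_neg (show ¬ (1 : ZMod 8) = 0 by decide), mul_zero, zero_add] at k4 k1
  rw [show (4 : ZMod 8) - 0 = 4 by decide, show (4 : ZMod 8) - 1 = 3 by decide, show (4 : ZMod 8) - 2 = 2 by decide,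
    show (4 : ZMod 8) - 3 = 1 by decide, show (4 : ZMod 8) - 4 = 0 by decide, show (4 : ZMod 8) - 5 = 7 by decide,
    show (4 : ZMod 8) - 6 = 6 by decide, show (4 : ZMod 8) - 7 = 5 by decide,
    show (1 : ZMod 8) + 4 = 5 by decide, show (2 : ZMod 8) + 4 = 6 by decide,
    show (3 : ZMod 8) + 4 = 7 by decide, show (4 : ZMod 8) + 4 = 0 by decide, show (5 : ZMod 8) + 4 = 1 by decide,
    show (6 : ZMod 8) + 4 = 2 by decide, show (7 : ZMod 8) + 4 = 3 by decide, v0, v4, v3, v5, v7, v26, v2] at k4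
  rw [show (1 : ZMod 8) - 0 = 1 by decide, show (1 : ZMod 8) - 1 = 0 by decide, show (1 : ZMod 8) - 2 = 7 by decide,
    show (1 : ZMod 8) - 3 = 6 by decide, show (1 : ZMod 8) - 4 = 5 by decide, show (1 : ZMod 8) - 5 = 4 by decide,
    show (1 : ZMod 8) - 6 = 3 by decide, show (1 : ZMod 8) - 7 = 2 by decide,
    show (1 : ZMod 8) + 1 = 2 by decide, show (2 : ZMod 8) + 1 = 3 by decide,
    show (3 : ZMod 8) + 1 = 4 by decide, show (4 : ZMod 8) + 1 = 5 by decide, show (5 : ZMod 8) + 1 = 6 by decide,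
    show (6 : ZMod 8) + 1 = 7 by decide, show (7 : ZMod 8) + 1 = 0 by decide, v0, v4, v3, v5, v7, v26, v2] at k1
  have hη : S.HH t0 (.r 1) * S.HH t0 (.r 1) = S.HH t0 (.r 1) := by
    rcases S.HH_01 ht00 (.r 1) with h | h <;> rw [h] <;> norm_num
  refine eight_contra (v := fun i => S.HH t0 (.sr i)) (fun i => S.HH_01 ht00 _) hh2 ?_ ?_
  · linarith
  · linarith

/-- A rational primitive Schur ring is trivial. -/
theorem rat_triv (hn2 : 2 ≤ n) (hr : S.Rat') {x y : DihedralGroup n} (hx : x ≠ 1) (hy : y ≠ 1) : S.rel x y := by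
  by_cases h : ∃ p, p.Prime ∧ p ∣ n ∧ p ≠ 2
  · obtain ⟨p, hp, hpn, hp2⟩ := h
    have : Fact p.Prime := ⟨hp⟩
    obtain ⟨a, n', hn', hn⟩ := Nat.exists_eq_pow_mul_and_not_dvd (NeZero.ne n) p hp.ne_one
    have ha : 1 ≤ a := by
      rcases Nat.eq_zero_or_pos a with h | h
      · subst h
        rw [pow_zero, one_mul] at hn
        rw [← hn] at hn'
        exact absurd hpn hn'
      · exact h
    exact S.odd_triv hn2 hp2 hn ha hn' hr hx hy
  · push Not at h
    have : ∃ a, n = 2 ^ a := by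
      refine ⟨_, Nat.eq_prime_pow_of_unique_prime_dvd (NeZero.ne n) fun {d} hd hdn => h d hd hdn⟩
    obtain ⟨a, ha⟩ := this
    refine S.two_triv ha ?_ hr hx hy
    rcases Nat.eq_zero_or_pos a with h | h
    · subst h; rw [pow_zero] at ha; omega
    · exact h

end SR

end Cfsg.Agent.Lib.DihB
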