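import Cfsg.Agent.Lib.DihB10

/-! Dihedral groups are B-groups, part 11: primitive Schur rings are trivial. -/

set_option linter.unusedSectionVars false
set_option linter.unusedSimpArgs false

namespace Cfsg.Agent.Lib.DihB

open Finset

section

variable {n : ℕ} [NeZero n]

theorem sum_conv (f g : DihedralGroup n → ℤ) : ∑ d, conv f g d = (∑ d, f d) * ∑ d, g d := by
  simp only [conv]
  rw [sum_comm, sum_mul_sum]
  refine sum_congr rfl fun z _ => ?_
  exact Equiv.sum_comp (Equiv.mulLeft z⁻¹) (fun d => f z * g d)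

theorem sum_delta : ∑ d, (delta : DihedralGroup n → ℤ) d = 1 := by
  simp [delta]

theorem sum_cpow (f : DihedralGroup n → ℤ) (q : ℕ) : ∑ d, cpow f q d = (∑ d, f d) ^ q := by
  induction q with
  | zero => rw [cpow, sum_delta, pow_zero]
  | succ q ih => rw [cpow, sum_conv, ih, pow_succ']

theorem sum_one_dih : ∑ _d : DihedralGroup n, (1 : ℤ) = 2 * n := by
  rw [sum_dih]
  simp [ZMod.card]; ring

end

namespace SR

variable {n : ℕ} [NeZero n] (S : SR n)

theorem triv (hn2 : 2 ≤ n) {x y : DihedralGroup n} (hx : x ≠ 1) (hy : y ≠ 1) : S.rel x y := by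
  classical
  suffices h : ∀ i0 : ZMod n, i0 ≠ 0 → ∀ d, d ≠ 1 → S.rel (.r i0) d by
    obtain ⟨i, hi, hxi⟩ := S.exists_rot hn2 hx
    exact S.eqv.trans hxi (h i hi y hy)
  intro i0 hi0 d0 hd0
  have hγ1 : S.ind (.r i0) 1 = 0 := S.ind_zero fun h => hi0 (r_eq_one.1 (S.one _ (S.eqv.symm h)))
  have hγ01 : ∀ d, S.ind (.r i0) d = 0 ∨ S.ind (.r i0) d = 1 := by
    intro d
    by_cases h : S.rel (.r i0) d
    · right; exact S.ind_pos h
    · left; exact S.ind_zero h
  have hγInv : S.Inv (S.ind (.r i0)) := S.inv_ind _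
  have hγself : S.ind (.r i0) (.r i0) = 1 := S.ind_pos (S.eqv.refl _)
  by_contra hcon
  have hd0γ : S.ind (.r i0) d0 = 0 := S.ind_zero hcon
  clear hcon
  generalize S.ind (.r i0) = γ at *
  -- primes
  have hprime : ∀ m : (ZMod n)ˣ, ∃ ℓ : ℕ, 2 * n + 2 < ℓ ∧ ℓ.Prime ∧ (ℓ : ZMod n) = m := fun m =>
    Nat.forall_exists_prime_gt_and_eq_mod m.isUnit (2 * n + 2)
  choose ℓ hℓgt hℓp hℓm using hprime
  have hcop : ∀ m, (ℓ m).Coprime n := fun m => (ZMod.isUnit_iff_coprime _ _).1 (by rw [hℓm]; exact m.isUnit)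
  let g : (ZMod n)ˣ → DihedralGroup n → ℤ := fun m d => if (ℓ m : ℤ) ∣ cpow γ (ℓ m) d then 0 else 1
  have hgInv : ∀ m, S.Inv (g m) := fun m =>
    S.inv_comp (S.inv_cpow hγInv (ℓ m)) (fun z => if (ℓ m : ℤ) ∣ z then 0 else 1)
  have hg01 : ∀ m d, g m d = 0 ∨ g m d = 1 := by
    intro m d
    simp only [g]
    split_ifs
    · left; rfl
    · right; rfl
  have hcc : ∀ m i, (ℓ m : ℤ) ∣ cpow γ (ℓ m) (.r ((m : ZMod n) * i)) - γ (.r i) := by
    intro m i
    have : Fact (ℓ m).Prime := ⟨hℓp m⟩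
    have h1 := cpow_coprime (ℓ := ℓ m) (by have := hℓgt m; omega) (hcop m) (S.sy hγInv) i
    rwa [nsmul_eq_mul, hℓm] at h1
  have hgr : ∀ m i, g m (.r ((m : ZMod n) * i)) = γ (.r i) := by
    intro m i
    have h1 := hcc m i
    simp only [g]
    rcases hγ01 (.r i) with h | h
    · rw [h, sub_zero] at h1
      rw [if_pos h1, h]
    · rw [h] at h1
      rw [if_neg, h]
      intro h2
      have h3 := dvd_sub h2 h1
      rw [sub_sub_cancel] at h3
      have := Int.le_of_dvd one_pos h3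
      have := hℓgt m
      omega
  have hgr' : ∀ m i, g m (.r i) = γ (.r (((m⁻¹ : (ZMod n)ˣ) : ZMod n) * i)) := by
    intro m i
    rw [← hgr m, Units.mul_inv_cancel_left]
  have hbound : ∀ f : DihedralGroup n → ℤ, (∀ d, f d = 0 ∨ f d = 1) → 0 ≤ ∑ d, f d ∧ ∑ d, f d ≤ 2 * n := by
    intro f hf
    constructor
    · exact sum_nonneg fun d _ => by rcases hf d with h | h <;> rw [h]; norm_num
    · rw [← sum_one_dih]
      exact sum_le_sum fun d _ => by rcases hf d with h | h <;> rw [h]; norm_num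
  have hsum : ∀ m, ∑ d, g m d = ∑ d, γ d := by
    intro m
    have hp : Fact (ℓ m).Prime := ⟨hℓp m⟩
    have h1 : ∀ d, (ℓ m : ℤ) ∣ cpow γ (ℓ m) d - g m d := by
      intro d
      have := S.det hn2 (f := cpow γ (ℓ m) - g m) (S.inv_sub (S.inv_cpow hγInv _) (hgInv m))
        (P := fun z => (ℓ m : ℤ) ∣ z) ?_ d
      · simpa using this
      · intro i
        have h2 := hcc m (((m⁻¹ : (ZMod n)ˣ) : ZMod n) * i)
        rw [Units.mul_inv_cancel_left] at h2
        simp only [Pi.sub_apply]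
        rw [hgr' m i]; exact h2
    have h2 : (ℓ m : ℤ) ∣ ∑ d, cpow γ (ℓ m) d - ∑ d, g m d := by
      rw [← sum_sub_distrib]
      exact dvd_sum fun d _ => h1 d
    rw [sum_cpow] at h2
    have h3 := fermat_pow (p := ℓ m) (∑ d, γ d) 1
    rw [pow_one] at h3
    have h4 := dvd_sub h3 h2
    rw [sub_sub_sub_cancel_left] at h4
    have h5 := Int.eq_zero_of_abs_lt_dvd h4 (by
      have b1 := hbound γ hγ01
      have b2 := hbound (g m) (hg01 m)
      have b3 := hℓgt m
      rw [abs_lt]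
      constructor <;> omega)
    linarith
  have hsumr : ∀ m, ∑ i, g m (.r i) = ∑ i, γ (.r i) := by
    intro m
    rw [← Equiv.sum_comp (Units.mulLeft m) (fun i => g m (.r i))]
    exact sum_congr rfl fun i _ => hgr m i
  -- the sum
  let F : DihedralGroup n → ℤ := fun d => ∑ m, g m d
  have hFInv : S.Inv F := fun x y h => sum_congr rfl fun m _ => hgInv m x y h
  have hFr : ∀ i, F (.r i) = ∑ m : (ZMod n)ˣ, γ (.r ((m : ZMod n) * i)) := by
    intro i
    simp only [F, hgr']
    exact Equiv.sum_comp (Equiv.inv _) (fun m : (ZMod n)ˣ => γ (.r ((m : ZMod n) * i)))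
  have hFRa : Ra F := by
    intro i m hm
    have ho : 0 < addOrderOf i := addOrderOf_pos i
    have : NeZero (addOrderOf i) := ⟨ho.ne'⟩
    have hu : IsUnit (m : ZMod (addOrderOf i)) := (ZMod.isUnit_iff_coprime _ _).2 hm
    obtain ⟨q, hq, hqp, hqm⟩ := Nat.forall_exists_prime_gt_and_eq_mod hu n
    have hcop : q.Coprime n := by
      refine (Nat.Prime.coprime_iff_not_dvd hqp).2 fun h => ?_
      have := Nat.le_of_dvd (by omega) h
      omega
    have e : q • i = m • i := by
      rw [nsmul_eq_nsmul_iff_modEq]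
      exact (ZMod.natCast_eq_natCast_iff _ _ _).1 hqm
    rw [← e, hFr, hFr]
    rw [← Equiv.sum_comp (Equiv.mulRight (ZMod.unitOfCoprime q hcop))
      (fun m : (ZMod n)ˣ => γ (.r ((m : ZMod n) * i)))]
    refine sum_congr rfl fun u _ => ?_
    simp only [Equiv.coe_mulRight, Units.val_mul, ZMod.coe_unitOfCoprime, nsmul_eq_mul, mul_assoc]
  have hFR : (S.rat hn2).Inv F := (S.rat_inv hn2).2 ⟨hFInv, hFRa⟩
  have hi01 : (DihedralGroup.r i0 : DihedralGroup n) ≠ 1 := fun h => hi0 (r_eq_one.1 h)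
  have hconst : ∀ d, d ≠ 1 → F d = F (.r i0) := fun d hd =>
    hFR _ _ ((S.rat hn2).rat_triv hn2 (S.rat_rel hn2) hd hi01)
  have hF1 : F 1 = 0 := by
    rw [DihedralGroup.one_def, hFr]
    simp only [mul_zero]
    rw [← DihedralGroup.one_def, hγ1]; simp
  have hFd : ∀ d, F d = F (.r i0) * (1 - delta d) := by
    intro d
    by_cases hd : d = 1
    · rw [hd, hF1]; simp [delta]
    · rw [hconst d hd]; simp [delta, hd]
  generalize F (.r i0) = C at hFd
  have hφ : (0 : ℤ) < Fintype.card (ZMod n)ˣ := by exact_mod_cast Fintype.card_pos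
  have s1 : ∑ d, F d = C * (2 * n - 1) := by
    rw [sum_congr rfl (fun d _ => hFd d), ← mul_sum, sum_sub_distrib, sum_delta, sum_one_dih]
  have s1' : ∑ d, F d = Fintype.card (ZMod n)ˣ * ∑ d, γ d := by
    simp only [F]
    rw [sum_comm, sum_congr rfl (fun m _ => hsum m)]
    simp
  have s2 : ∑ i, F (.r i) = C * (n - 1) := by
    rw [sum_congr rfl (fun i _ => hFd (.r i)), ← mul_sum, sum_sub_distrib]
    simp [delta_r, ZMod.card]
  have s2' : ∑ i, F (.r i) = Fintype.card (ZMod n)ˣ * ∑ i, γ (.r i) := by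
    simp only [F]
    rw [sum_comm, sum_congr rfl (fun m _ => hsumr m)]
    simp
  have key : ((n : ℤ) - 1) * ∑ d, γ d = (2 * n - 1) * ∑ i, γ (.r i) := by
    apply mul_left_cancel₀ hφ.ne'
    linear_combination (n - 1 : ℤ) * (s1 - s1') - (2 * n - 1 : ℤ) * (s2 - s2')
  have hdvd : (2 * (n : ℤ) - 1) ∣ ∑ d, γ d := by
    have hc : IsCoprime (2 * (n : ℤ) - 1) ((n : ℤ) - 1) := ⟨1, -2, by ring⟩
    exact hc.dvd_of_dvd_mul_left ⟨_, key⟩
  have hpos : 0 < ∑ d, γ d := by
    have := single_le_sum (f := γ) (fun d _ => by rcases hγ01 d with h | h <;> rw [h]; norm_num) (mem_univ (.r i0))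
    rw [hγself] at this
    linarith
  have hle := Int.le_of_dvd hpos hdvd
  have hlt : ∑ d, γ d ≤ 2 * n - 2 := by
    have h1 : ∑ d, γ d + (1 + 1) ≤ ∑ _d : DihedralGroup n, (1 : ℤ) := by
      have h2 : ∑ d, γ d + ∑ d : DihedralGroup n, (if d = 1 then (1 : ℤ) else 0) +
          ∑ d : DihedralGroup n, (if d = d0 then (1 : ℤ) else 0) ≤
          ∑ _d : DihedralGroup n, (1 : ℤ) := by
        rw [← sum_add_distrib, ← sum_add_distrib]
        refine sum_le_sum fun d _ => ?_
        by_cases h1 : d = 1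
        · subst h1
          rw [hγ1, if_pos rfl, if_neg (Ne.symm hd0)]; norm_num
        · by_cases h2 : d = d0
          · subst h2
            rw [hd0γ, if_neg h1, if_pos rfl]; norm_num
          · rw [if_neg h1, if_neg h2]
            rcases hγ01 d with h | h <;> rw [h]; norm_num
            norm_num
      simp only [sum_ite_eq', mem_univ, if_true] at h2
      linarith
    rw [sum_one_dih] at h1
    linarith
  linarith

end SR

end Cfsg.Agent.Lib.DihB
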