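import Cfsg.Agent.Lib.DihB1

/-! Dihedral groups are B-groups, part 2: convolution on the dihedral group, powers. -/

set_option linter.unusedSectionVars false
set_option linter.unusedSimpArgs false

namespace Cfsg.Agent.Lib.DihB

open Finset

section mat

variable {R : Type*} [CommRing R]

theorem W_sq (v v' : R) : (!![0, v; v', 0] : Matrix (Fin 2) (Fin 2) R) ^ 2 = (v * v') • 1 := by
  rw [sq]
  ext i j
  fin_cases i <;> fin_cases j <;> simp [Matrix.mul_apply, Fin.sum_univ_two, mul_comm]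

theorem W_even (v v' : R) (j : ℕ) :
    (!![0, v; v', 0] : Matrix (Fin 2) (Fin 2) R) ^ (2 * j) = (v * v') ^ j • 1 := by
  rw [pow_mul, W_sq, smul_pow, one_pow]

theorem W_odd (v v' : R) (j : ℕ) :
    (!![0, v; v', 0] : Matrix (Fin 2) (Fin 2) R) ^ (2 * j + 1) =
      (v * v') ^ j • (!![0, v; v', 0] : Matrix (Fin 2) (Fin 2) R) := by
  rw [pow_succ, W_even, smul_mul_assoc, one_mul]

theorem W_00 (v v' : R) (m : ℕ) :
    ((!![0, v; v', 0] : Matrix (Fin 2) (Fin 2) R) ^ m) 0 0 = if Even m then (v * v') ^ (m / 2) else 0 := by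
  split_ifs with h
  · obtain ⟨j, rfl⟩ := h
    rw [← two_mul, W_even]
    simp
  · obtain ⟨j, rfl⟩ := Nat.not_even_iff_odd.1 h
    rw [W_odd]
    simp

theorem mat_pow (u v v' : R) (q : ℕ) :
    ((!![u, v; v', u] : Matrix (Fin 2) (Fin 2) R) ^ q) 0 0 =
      ∑ i ∈ range (q + 1), if Even i then (q.choose i : R) * (u ^ (q - i) * (v * v') ^ (i / 2)) else 0 := by
  have h : (!![u, v; v', u] : Matrix (Fin 2) (Fin 2) R) = !![0, v; v', 0] + u • 1 := by
    ext i j
    fin_cases i <;> fin_cases j <;> simp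
  have hc : Commute (!![0, v; v', 0] : Matrix (Fin 2) (Fin 2) R) (u • 1) :=
    (Commute.one_right _).smul_right u
  rw [h, hc.add_pow, Matrix.sum_apply]
  refine sum_congr rfl fun i _ => ?_
  rw [smul_pow, one_pow]
  have e : ((!![0, v; v', 0] : Matrix (Fin 2) (Fin 2) R) ^ i * u ^ (q - i) • 1 * (q.choose i : Matrix (Fin 2) (Fin 2) R)) =
      ((q.choose i : R) * u ^ (q - i)) • (!![0, v; v', 0] : Matrix (Fin 2) (Fin 2) R) ^ i := by
    rw [Algebra.mul_smul_comm, mul_one, smul_mul_assoc, ← Nat.cast_comm, ← nsmul_eq_mul, ← Nat.cast_smul_eq_nsmul R,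
      smul_smul, mul_comm]
  rw [e, Matrix.smul_apply, W_00]
  split_ifs
  · rw [smul_eq_mul, mul_assoc]
  · simp

/-- modulo `p` only the first term survives -/
theorem mat_pow_mod {p : ℕ} (hp : p.Prime) (hp2 : p ≠ 2) (u v v' : R) (k : ℕ) :
    (p : R) ∣ ((!![u, v; v', u] : Matrix (Fin 2) (Fin 2) R) ^ p ^ k) 0 0 - u ^ p ^ k := by
  rw [mat_pow, sum_range_succ']
  simp only [Nat.choose_zero_right, Nat.cast_one, one_mul, Nat.sub_zero, Nat.zero_div, pow_zero, mul_one]
  rw [if_pos (by decide), add_sub_cancel_right]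
  refine dvd_sum fun i hi => ?_
  split_ifs with h
  · rw [mem_range] at hi
    have hodd : Odd (p ^ k) := (hp.odd_of_ne_two hp2).pow
    have hne : i + 1 ≠ p ^ k := by
      intro hh
      rw [hh] at h
      exact (Nat.not_even_iff_odd.2 hodd) h
    have : p ∣ (p ^ k).choose (i + 1) := hp.dvd_choose_pow (by omega) hne
    exact Dvd.dvd.mul_right (Nat.cast_dvd_cast this) _
  · exact dvd_zero _

end mat

theorem choose_dvd {p : ℕ} (hp : p.Prime) (M v j : ℕ) (hj : ¬ p ∣ j) (hle : p ^ v * j ≤ p ^ M) (hv : v ≤ M) :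
    p ^ (M - v) ∣ (p ^ M).choose (p ^ v * j) := by
  have hj0 : j ≠ 0 := by rintro rfl; exact hj (dvd_zero _)
  have hpos : 0 < p ^ v * j := Nat.mul_pos (pow_pos hp.pos _) (Nat.pos_of_ne_zero hj0)
  obtain ⟨i, hi⟩ : ∃ i, p ^ v * j = i + 1 := ⟨p ^ v * j - 1, by omega⟩
  obtain ⟨Q, hQ⟩ : ∃ Q, p ^ M = Q + 1 := ⟨p ^ M - 1, by have := pow_pos hp.pos M; omega⟩
  have h := Nat.add_one_mul_choose_eq Q i
  rw [← hQ, ← hi] at h
  -- p^M * choose Q i = choose (p^M) (p^v j) * (p^v * j)
  have h1 : p ^ M ∣ (p ^ M).choose (p ^ v * j) * (p ^ v * j) := ⟨_, h.symm⟩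
  have h2 : p ^ M = p ^ v * p ^ (M - v) := by rw [← pow_add]; congr 1; omega
  have h3 : p ^ v * p ^ (M - v) ∣ p ^ v * ((p ^ M).choose (p ^ v * j) * j) := by
    rw [← h2]
    calc p ^ M ∣ (p ^ M).choose (p ^ v * j) * (p ^ v * j) := h1
      _ = _ := by ring
  have h4 := Nat.dvd_of_mul_dvd_mul_left (pow_pos hp.pos v) h3
  exact (Nat.Coprime.dvd_of_dvd_mul_right
    ((Nat.Prime.coprime_iff_not_dvd hp).2 hj |>.pow_left _) h4)

section AA2

variable {n : ℕ} [NeZero n]

/-- coefficients of high powers in the group ring of `ℤ/n` away from the `p'`-part -/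
theorem pow_coeff {p : ℕ} [Fact p.Prime] {a n' : ℕ} (hn : n = p ^ a * n') (c : AA n) (v : ℕ) (hv : a ≤ v)
    (x : ZMod n) (hx : n' • x ≠ 0) : (p : ℤ) ^ (v - a + 1) ∣ (c ^ p ^ v).coeff x := by
  classical
  have h := dvd_sub_pow_of_dvd_sub (frob (p := p) c a) (v - a)
  rw [← pow_mul, ← pow_add, ← map_pow] at h
  have e : a + (v - a) = v := by omega
  rw [e] at h
  have h' : (((p ^ (v - a + 1) : ℕ)) : AA n) ∣ c ^ p ^ v - psi (p ^ a) (c ^ p ^ (v - a)) := by
    push_cast
    exact h
  rw [dvd_natA] at h'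
  have h1 := h' x
  rw [AddMonoidAlgebra.coeff_sub, Finsupp.sub_apply, coeff_psi, sum_eq_zero, sub_zero] at h1
  · exact_mod_cast h1
  · intro j hj
    rw [mem_filter] at hj
    exfalso
    apply hx
    rw [← hj.2, smul_smul, mul_comm n', ← hn, nsmul_eq_mul, ZMod.natCast_self, zero_mul]

end AA2

section conv

variable {n : ℕ} [NeZero n]

/-- Convolution on the dihedral group. -/
def conv (f g : DihedralGroup n → ℤ) (d : DihedralGroup n) : ℤ := ∑ z, f z * g (z⁻¹ * d)

/-- the dihedral group as two copies of `ℤ/n` -/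
def dihEquiv : ZMod n ⊕ ZMod n ≃ DihedralGroup n where
  toFun := fun x => match x with
    | Sum.inl i => .r i
    | Sum.inr i => .sr i
  invFun := fun d => match d with
    | .r i => Sum.inl i
    | .sr i => Sum.inr i
  left_inv := by rintro (i | i) <;> rfl
  right_inv := by rintro (i | i) <;> rfl

theorem sum_dih (F : DihedralGroup n → ℤ) :
    ∑ d, F d = ∑ i, F (.r i) + ∑ i, F (.sr i) := by
  rw [← Equiv.sum_comp dihEquiv F, Fintype.sum_sum_type]
  rfl

theorem conv_r (f g : DihedralGroup n → ℤ) (k : ZMod n) :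
    conv f g (.r k) = ∑ i, f (.r i) * g (.r (k - i)) + ∑ i, f (.sr i) * g (.sr (i + k)) := by
  rw [conv, sum_dih]
  congr 1
  refine sum_congr rfl fun i _ => ?_
  rw [DihedralGroup.inv_r, DihedralGroup.r_mul_r]
  congr 3
  ring

theorem conv_sr (f g : DihedralGroup n → ℤ) (k : ZMod n) :
    conv f g (.sr k) = ∑ i, f (.r i) * g (.sr (k + i)) + ∑ i, f (.sr i) * g (.r (k - i)) := by
  rw [conv, sum_dih]
  congr 1
  refine sum_congr rfl fun i _ => ?_
  rw [DihedralGroup.inv_r, DihedralGroup.r_mul_sr]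
  congr 3
  ring

/-- delta function -/
def delta : DihedralGroup n → ℤ := fun d => if d = 1 then 1 else 0

/-- convolution powers -/
def cpow (f : DihedralGroup n → ℤ) : ℕ → (DihedralGroup n → ℤ)
  | 0 => delta
  | m + 1 => conv f (cpow f m)

/-- matrix of a function -/
noncomputable def TM (f : DihedralGroup n → ℤ) : Matrix (Fin 2) (Fin 2) (AA n) :=
  !![mk (fun i => f (.r i)), mk (fun i => f (.sr (-i))); mk (fun i => f (.sr i)), mk (fun i => f (.r (-i)))]

theorem TM_conv (f g : DihedralGroup n → ℤ) : TM (conv f g) = TM f * TM g := by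
  have hneg : ∀ F : ZMod n → ℤ, ∑ i, F i = ∑ i, F (-i) := fun F => (Equiv.sum_comp (Equiv.neg _) F).symm
  ext i j k
  fin_cases i <;> fin_cases j <;>
    simp only [TM, Matrix.mul_apply, Fin.sum_univ_two, Fin.zero_eta, Fin.isValue, Fin.mk_one, Matrix.of_apply,
      Matrix.cons_val', Matrix.cons_val_zero, Matrix.cons_val_one, Matrix.cons_val_fin_one,
      AddMonoidAlgebra.coeff_add, Finsupp.add_apply, coeff_mk, coeff_mulA]
  · rw [conv_r]
    congr 1
    rw [hneg]
    refine sum_congr rfl fun i _ => ?_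
    congr 3; ring
  · rw [conv_sr]
    congr 1
    · refine sum_congr rfl fun i _ => ?_
      congr 3; ring
    · rw [hneg]
      refine sum_congr rfl fun i _ => ?_
      congr 3; ring
  · rw [conv_sr, add_comm]
    congr 1
    rw [hneg]
    refine sum_congr rfl fun i _ => ?_
    congr 3; ring
  · rw [conv_r, add_comm]
    congr 1
    · refine sum_congr rfl fun i _ => ?_
      congr 3; ring
    · rw [hneg]
      refine sum_congr rfl fun i _ => ?_
      congr 3; ring

theorem TM_delta : TM (delta : DihedralGroup n → ℤ) = 1 := by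
  have h1 : ∀ i : ZMod n, (DihedralGroup.r i : DihedralGroup n) = 1 ↔ i = 0 := by
    intro i
    rw [DihedralGroup.one_def]
    exact ⟨fun h => by injection h, fun h => by rw [h]⟩
  have h2 : ∀ i : ZMod n, (DihedralGroup.sr i : DihedralGroup n) ≠ 1 := by
    intro i h
    rw [DihedralGroup.one_def] at h
    cases h
  ext i j k
  fin_cases i <;> fin_cases j <;>
    simp [TM, delta, coeff_oneA, h1, h2]

theorem TM_cpow (f : DihedralGroup n → ℤ) (m : ℕ) : TM (cpow f m) = TM f ^ m := by
  induction m with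
  | zero => rw [cpow, TM_delta, pow_zero]
  | succ m ih => rw [cpow, TM_conv, ih, pow_succ']

theorem TM_inj {f g : DihedralGroup n → ℤ} (h : TM f = TM g) : f = g := by
  funext d
  rcases d with i | i
  · have := congrArg (fun X => (X 0 0).coeff i) h
    simpa [TM] using this
  · have := congrArg (fun X => (X 1 0).coeff i) h
    simpa [TM] using this

theorem coeff_TM (f : DihedralGroup n → ℤ) (i : ZMod n) : (TM f 0 0).coeff i = f (.r i) := by
  simp [TM]

/-- the symmetric case -/
def Sy (f : DihedralGroup n → ℤ) : Prop := ∀ i, f (.r (-i)) = f (.r i)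

theorem TM_sym {f : DihedralGroup n → ℤ} (hf : Sy f) :
    TM f = !![mk (fun i => f (.r i)), mk (fun i => f (.sr (-i))); mk (fun i => f (.sr i)), mk (fun i => f (.r i))] := by
  rw [TM]
  simp only [hf _]

open Classical in
/-- Frobenius modulo an odd prime. -/
theorem cpow_mod {p : ℕ} [Fact p.Prime] (hp2 : p ≠ 2) {f : DihedralGroup n → ℤ} (hf : Sy f) (k : ℕ) (x : ZMod n) :
    (p : ℤ) ∣ cpow f (p ^ k) (.r x) - ∑ j ∈ univ.filter (fun j : ZMod n => p ^ k • j = x), f (.r j) := by
  have h1 := mat_pow_mod (Fact.out : p.Prime) hp2 (mk (fun i => f (.r i))) (mk (fun i => f (.sr (-i))))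
    (mk (fun i => f (.sr i))) k
  rw [← TM_sym hf, ← TM_cpow] at h1
  have h2 := frob (p := p) (mk (fun i => f (.r i)) : AA n) k
  have h3 := dvd_add h1 h2
  rw [sub_add_sub_cancel, dvd_natA] at h3
  have h4 := h3 x
  rw [AddMonoidAlgebra.coeff_sub, Finsupp.sub_apply, coeff_psi, coeff_TM] at h4
  simpa using h4

/-- high powers are supported on `p'`-rotations `p`-adically -/
theorem cpow_star {p : ℕ} [Fact p.Prime] (hp2 : p ≠ 2) {a n' : ℕ} (hn : n = p ^ a * n')
    {f : DihedralGroup n → ℤ} (hf : Sy f) (M : ℕ) (haM : a ≤ M) (x : ZMod n) (hx : n' • x ≠ 0) :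
    (p : ℤ) ^ (M - a + 1) ∣ cpow f (p ^ M) (.r x) := by
  have hp := (Fact.out : p.Prime)
  rcases Nat.eq_zero_or_pos a with rfl | ha0
  · exfalso
    apply hx
    rw [pow_zero, one_mul] at hn
    rw [← hn, nsmul_eq_mul, ZMod.natCast_self, zero_mul]
  rw [← coeff_TM (cpow f (p ^ M)), TM_cpow, TM_sym hf, mat_pow]
  rw [coeff_sum']
  refine dvd_sum fun i hi => ?_
  rw [mem_range] at hi
  split_ifs with hev
  · rw [coeff_natMul]
    set u : AA n := mk (fun i => f (.r i))
    set N : AA n := mk (fun i => f (.sr (-i))) * mk (fun i => f (.sr i))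
    rcases Nat.eq_zero_or_pos i with rfl | hi0
    · simp only [Nat.choose_zero_right, Nat.cast_one, one_mul, Nat.sub_zero, Nat.zero_div, pow_zero, mul_one]
      exact pow_coeff hn u M haM x hx
    · obtain ⟨v, j, hj, hij⟩ := Nat.exists_eq_pow_mul_and_not_dvd hi0.ne' p hp.ne_one
      have hodd : Odd p := hp.odd_of_ne_two hp2
      have hjev : Even j := by
        rw [hij, Nat.even_mul] at hev
        rcases hev with h | h
        · exact absurd h (Nat.not_even_iff_odd.2 hodd.pow)
        · exact h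
      obtain ⟨j2, hj2⟩ := hjev
      have hle : i ≤ p ^ M := by omega
      have hj0 : 0 < j := Nat.pos_of_ne_zero (by rintro rfl; exact hj (dvd_zero _))
      have hvM : v ≤ M := by
        by_contra hcon
        rw [not_le] at hcon
        have : p ^ M < p ^ v := Nat.pow_lt_pow_right hp.one_lt hcon
        have : p ^ v ≤ p ^ v * j := Nat.le_mul_of_pos_right _ hj0
        omega
      have hC : p ^ (M - v) ∣ (p ^ M).choose i := by
        rw [hij]
        exact choose_dvd hp M v j hj (by rw [← hij]; exact hle) hvM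
      have hC' : (p : ℤ) ^ (M - v) ∣ ((p ^ M).choose i : ℤ) := by exact_mod_cast hC
      have hterm : u ^ (p ^ M - i) * N ^ (i / 2) = (u ^ (p ^ (M - v) - j) * N ^ j2) ^ p ^ v := by
        generalize u = u'
        generalize N = N'
        rw [mul_pow, ← pow_mul, ← pow_mul]
        congr 2
        · rw [Nat.sub_mul, ← pow_add, hij, mul_comm (p ^ v) j, Nat.sub_add_cancel hvM]
        · rw [hij, hj2]
          have : p ^ v * (j2 + j2) = 2 * (j2 * p ^ v) := by ring
          rw [this, Nat.mul_div_cancel_left _ (by norm_num)]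
      rw [hterm]
      by_cases hav : a ≤ v
      · have h2 := pow_coeff hn (u ^ (p ^ (M - v) - j) * N ^ j2) v hav x hx
        have h3 := mul_dvd_mul hC' h2
        rw [← pow_add] at h3
        have e : M - v + (v - a + 1) = M - a + 1 := by omega
        rw [e] at h3
        exact h3
      · refine Dvd.dvd.mul_right ?_ _
        exact (pow_dvd_pow _ (by omega)).trans hC'
  · simp

end conv

end Cfsg.Agent.Lib.DihB
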