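import Cfsg.Agent.Lib.DihB2

/-! Dihedral groups are B-groups, part 3: primitive Schur rings over the dihedral group. -/

set_option linter.unusedSectionVars false
set_option linter.unusedSimpArgs false

namespace Cfsg.Agent.Lib.DihB

open Finset

section convlin

variable {n : ℕ} [NeZero n]

theorem conv_add_left (f f' g : DihedralGroup n → ℤ) : conv (f + f') g = conv f g + conv f' g := by
  funext d
  simp [conv, add_mul, sum_add_distrib]

theorem conv_add_right (f g g' : DihedralGroup n → ℤ) : conv f (g + g') = conv f g + conv f g' := by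
  funext d
  simp [conv, mul_add, sum_add_distrib]

theorem conv_smul_left (c : ℤ) (f g : DihedralGroup n → ℤ) : conv (c • f) g = c • conv f g := by
  funext d
  simp [conv, mul_sum, mul_assoc]

theorem conv_smul_right (c : ℤ) (f g : DihedralGroup n → ℤ) : conv f (c • g) = c • conv f g := by
  funext d
  simp only [conv, Pi.smul_apply, smul_eq_mul, mul_sum]
  exact sum_congr rfl fun i _ => by ring

theorem conv_neg_left (f g : DihedralGroup n → ℤ) : conv (-f) g = -conv f g := by
  funext d
  simp [conv]

theorem conv_neg_right (f g : DihedralGroup n → ℤ) : conv f (-g) = -conv f g := by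
  funext d
  simp [conv]

theorem conv_delta_left (g : DihedralGroup n → ℤ) : conv delta g = g := by
  apply TM_inj
  rw [TM_conv, TM_delta, one_mul]

theorem conv_delta_right (g : DihedralGroup n → ℤ) : conv g delta = g := by
  apply TM_inj
  rw [TM_conv, TM_delta, mul_one]

theorem conv_assoc (f g h : DihedralGroup n → ℤ) : conv (conv f g) h = conv f (conv g h) := by
  apply TM_inj
  rw [TM_conv, TM_conv, TM_conv, TM_conv, mul_assoc]

end convlin

/-- A primitive Schur ring over the dihedral group of order `2n`. -/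
structure SR (n : ℕ) [NeZero n] where
  rel : DihedralGroup n → DihedralGroup n → Prop
  eqv : Equivalence rel
  one : ∀ x, rel 1 x → x = 1
  inv : ∀ x y, rel x y → rel x⁻¹ y⁻¹
  mul : ∀ f g : DihedralGroup n → ℤ, (∀ x y, rel x y → f x = f y) → (∀ x y, rel x y → g x = g y) →
    ∀ x y, rel x y → conv f g x = conv f g y
  prim : ∀ f : DihedralGroup n → ℤ, (∀ x y, rel x y → f x = f y) →
    (∃ t, t ≠ 1 ∧ ∀ d, f (t * d) = f d) → ∀ d, f d = f 1

namespace SR

variable {n : ℕ} [NeZero n] (S : SR n)

def Inv (f : DihedralGroup n → ℤ) : Prop := ∀ x y, S.rel x y → f x = f y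

theorem inv_conv {f g : DihedralGroup n → ℤ} (hf : S.Inv f) (hg : S.Inv g) : S.Inv (conv f g) :=
  S.mul f g hf hg

theorem inv_delta : S.Inv delta := by
  intro x y h
  have : x = 1 ↔ y = 1 := by
    constructor
    · rintro rfl; exact S.one _ h
    · rintro rfl; exact S.one _ (S.eqv.symm h)
  simp [delta, this]

theorem inv_cpow {f : DihedralGroup n → ℤ} (hf : S.Inv f) (m : ℕ) : S.Inv (cpow f m) := by
  induction m with
  | zero => exact S.inv_delta
  | succ m ih => exact S.inv_conv hf ih

theorem inv_comp {f : DihedralGroup n → ℤ} (hf : S.Inv f) (φ : ℤ → ℤ) : S.Inv (fun d => φ (f d)) :=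
  fun x y h => congrArg φ (hf x y h)

theorem inv_const (c : ℤ) : S.Inv (fun _ => c) := fun _ _ _ => rfl

theorem inv_add {f g : DihedralGroup n → ℤ} (hf : S.Inv f) (hg : S.Inv g) : S.Inv (f + g) :=
  fun x y h => by simp [hf x y h, hg x y h]

theorem inv_sub {f g : DihedralGroup n → ℤ} (hf : S.Inv f) (hg : S.Inv g) : S.Inv (f - g) :=
  fun x y h => by simp [hf x y h, hg x y h]

theorem inv_smul {f : DihedralGroup n → ℤ} (hf : S.Inv f) (c : ℤ) : S.Inv (c • f) :=
  fun x y h => by simp [hf x y h]

open Classical in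
/-- indicator of a class -/
noncomputable def ind (x : DihedralGroup n) : DihedralGroup n → ℤ := fun d => if S.rel x d then 1 else 0

theorem inv_ind (x : DihedralGroup n) : S.Inv (S.ind x) := by
  intro y z h
  have : S.rel x y ↔ S.rel x z := ⟨fun h' => S.eqv.trans h' h, fun h' => S.eqv.trans h' (S.eqv.symm h)⟩
  unfold ind
  by_cases hx : S.rel x y
  · rw [if_pos hx, if_pos (this.1 hx)]
  · rw [if_neg hx, if_neg (fun h => hx (this.2 h))]

theorem ind_nonneg (x d : DihedralGroup n) : 0 ≤ S.ind x d := by
  unfold ind; split_ifs <;> norm_num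

theorem ind_pos {x d : DihedralGroup n} (h : S.rel x d) : S.ind x d = 1 := by
  unfold ind; rw [if_pos h]

theorem ind_zero {x d : DihedralGroup n} (h : ¬ S.rel x d) : S.ind x d = 0 := by
  unfold ind; rw [if_neg h]

theorem conv_nonneg {f g : DihedralGroup n → ℤ} (hf : ∀ d, 0 ≤ f d) (hg : ∀ d, 0 ≤ g d) (d : DihedralGroup n) :
    0 ≤ conv f g d := sum_nonneg fun z _ => mul_nonneg (hf z) (hg _)

theorem cpow_nonneg {f : DihedralGroup n → ℤ} (hf : ∀ d, 0 ≤ f d) (m : ℕ) (d : DihedralGroup n) :
    0 ≤ cpow f m d := by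
  induction m generalizing d with
  | zero => simp only [cpow, delta]; split_ifs <;> norm_num
  | succ m ih => exact conv_nonneg hf ih d

theorem conv_pos {f g : DihedralGroup n → ℤ} (hf : ∀ d, 0 ≤ f d) (hg : ∀ d, 0 ≤ g d) {x y : DihedralGroup n}
    (hx : 0 < f x) (hy : 0 < g y) : 0 < conv f g (x * y) := by
  have h := single_le_sum (f := fun z => f z * g (z⁻¹ * (x * y)))
    (fun z _ => mul_nonneg (hf z) (hg _)) (mem_univ x)
  simp only [inv_mul_cancel_left] at h
  exact lt_of_lt_of_le (mul_pos hx hy) h

open Classical in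
/-- a subset closed under multiplication and a union of classes is trivial -/
theorem mulClosed_triv (U : DihedralGroup n → Prop) (hmul : ∀ x y, U x → U y → U (x * y))
    (hrel : ∀ x y, S.rel x y → U x → U y) {t : DihedralGroup n} (ht : t ≠ 1) (hU : U t) : ∀ d, U d := by
  have hpow : ∀ k : ℕ, U (t ^ (k + 1)) := by
    intro k
    induction k with
    | zero => simpa using hU
    | succ k ih => rw [pow_succ]; exact hmul _ _ ih hU
  have hord : 1 < orderOf t := by
    have h0 : 0 < orderOf t := orderOf_pos t
    have h1 : orderOf t ≠ 1 := fun h => ht (orderOf_eq_one_iff.1 h)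
    omega
  have h1 : U 1 := by
    have := hpow (orderOf t - 1)
    rwa [Nat.sub_add_cancel hord.le, pow_orderOf_eq_one] at this
  have hinv : U t⁻¹ := by
    have h2 : t⁻¹ = t ^ (orderOf t - 2 + 1) := by
      have : orderOf t - 2 + 1 = orderOf t - 1 := by omega
      rw [this, eq_comm, ← mul_eq_one_iff_eq_inv, ← pow_succ, Nat.sub_add_cancel hord.le, pow_orderOf_eq_one]
    rw [h2]; exact hpow _
  let F : DihedralGroup n → ℤ := fun d => if U d then 1 else 0
  have hF : S.Inv F := by
    intro x y h
    have : U x ↔ U y := ⟨hrel x y h, hrel y x (S.eqv.symm h)⟩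
    simp [F, this]
  have hF2 : ∀ d, F (t * d) = F d := by
    intro d
    have : U (t * d) ↔ U d := by
      constructor
      · intro h
        have := hmul _ _ hinv h
        rwa [inv_mul_cancel_left] at this
      · intro h; exact hmul _ _ hU h
    simp [F, this]
  have := S.prim F hF ⟨t, ht, hF2⟩
  intro d
  by_contra hd
  have h3 := this d
  simp [F, hd, h1] at h3

theorem closure_top {x : DihedralGroup n} (hx : x ≠ 1) (d : DihedralGroup n) :
    d ∈ Submonoid.closure {y | S.rel x y} := by
  have hnn := S.ind_nonneg x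
  have ha : ∀ d, d ∈ Submonoid.closure {y | S.rel x y} → ∃ m, 0 < cpow (S.ind x) m d := by
    intro d hd
    induction hd using Submonoid.closure_induction_left with
    | one => exact ⟨0, by simp [cpow, delta]⟩
    | mul_left y hy z hz ih =>
      obtain ⟨m, hm⟩ := ih
      refine ⟨m + 1, ?_⟩
      exact conv_pos hnn (cpow_nonneg hnn m) (by rw [S.ind_pos hy]; norm_num) hm
  have hb : ∀ m d, cpow (S.ind x) m d ≠ 0 → d ∈ Submonoid.closure {y | S.rel x y} := by
    intro m
    induction m with
    | zero =>
      intro d hd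
      have : d = 1 := by
        by_contra h
        exact hd (by simp [cpow, delta, h])
      rw [this]; exact one_mem _
    | succ m ih =>
      intro d hd
      rw [cpow, conv] at hd
      obtain ⟨z, _, hz⟩ := exists_ne_zero_of_sum_ne_zero hd
      have h1 : S.rel x z := by
        by_contra h
        exact hz (by rw [S.ind_zero h, zero_mul])
      have h2 := ih (z⁻¹ * d) (right_ne_zero_of_mul hz)
      have := mul_mem (Submonoid.subset_closure (show z ∈ {y | S.rel x y} from h1)) h2
      rwa [mul_inv_cancel_left] at this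
  refine S.mulClosed_triv (fun d => d ∈ Submonoid.closure {y | S.rel x y}) (fun a b ha hb => mul_mem ha hb) ?_ hx
    (Submonoid.subset_closure (S.eqv.refl x)) d
  intro y z hyz hy
  obtain ⟨m, hm⟩ := ha y hy
  have : cpow (S.ind x) m z = cpow (S.ind x) m y := (S.inv_cpow (S.inv_ind x) m y z hyz).symm
  exact hb m z (by rw [this]; exact hm.ne')

theorem sr_ne_one (j : ZMod n) : (DihedralGroup.sr j : DihedralGroup n) ≠ 1 := by
  intro h
  rw [DihedralGroup.one_def] at h
  cases h

theorem r_eq_one {i : ZMod n} : (DihedralGroup.r i : DihedralGroup n) = 1 ↔ i = 0 := by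
  rw [DihedralGroup.one_def]
  exact ⟨fun h => by injection h, fun h => by rw [h]⟩

/-- every nontrivial class contains a reflection -/
theorem exists_refl {x : DihedralGroup n} (hx : x ≠ 1) : ∃ j, S.rel x (.sr j) := by
  by_contra hcon
  push Not at hcon
  have h := S.closure_top hx (.sr 0)
  have hsub : ∀ d, d ∈ Submonoid.closure {y | S.rel x y} → ∃ i, d = DihedralGroup.r i := by
    intro d hd
    induction hd using Submonoid.closure_induction with
    | mem y hy =>
      rcases y with i | i
      · exact ⟨i, rfl⟩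
      · exact absurd hy (hcon i)
    | one => exact ⟨0, DihedralGroup.one_def⟩
    | mul a b _ _ ha hb =>
      obtain ⟨i, rfl⟩ := ha
      obtain ⟨j, rfl⟩ := hb
      exact ⟨i + j, by rw [DihedralGroup.r_mul_r]⟩
  obtain ⟨i, hi⟩ := hsub _ h
  cases hi

/-- every nontrivial class contains a nontrivial rotation -/
theorem exists_rot (hn : 2 ≤ n) {x : DihedralGroup n} (hx : x ≠ 1) : ∃ i, i ≠ 0 ∧ S.rel x (.r i) := by
  have hkey : ∀ j : ZMod n, ∃ i, i ≠ 0 ∧ S.rel (.sr j) (.r i) := by
    intro j
    by_contra hcon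
    push Not at hcon
    have hcon' : ∀ i, ¬ S.rel (.sr j) (.r i) := by
      intro i hi
      by_cases h0 : i = 0
      · subst h0
        rw [← DihedralGroup.one_def] at hi
        exact sr_ne_one j (S.one _ (S.eqv.symm hi))
      · exact hcon i h0 hi
    have hnn := S.ind_nonneg (.sr j)
    -- the square vanishes on nontrivial rotations
    have hsq : ∀ i, i ≠ 0 → conv (S.ind (.sr j)) (S.ind (.sr j)) (.r i) = 0 := by
      intro i hi
      have hi1 : (DihedralGroup.r i : DihedralGroup n) ≠ 1 := fun h => hi (r_eq_one.1 h)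
      obtain ⟨k, hk⟩ := S.exists_refl hi1
      rw [S.inv_conv (S.inv_ind _) (S.inv_ind _) _ _ hk]
      refine sum_eq_zero fun z _ => ?_
      rcases z with a | a
      · rw [S.ind_zero (hcon' a), zero_mul]
      · rw [DihedralGroup.inv_sr, DihedralGroup.sr_mul_sr, S.ind_zero (hcon' _), mul_zero]
    have huniq : ∀ y, S.rel (.sr j) y → y = .sr j := by
      intro y hy
      rcases y with a | a
      · exact absurd hy (hcon' a)
      · by_contra hne
        have hne' : j - a ≠ 0 := by
          intro h
          apply hne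
          rw [sub_eq_zero] at h
          rw [h]
        have h1 := conv_pos hnn hnn (x := .sr a) (y := .sr j) (by rw [S.ind_pos hy]; norm_num)
          (by rw [S.ind_pos (S.eqv.refl _)]; norm_num)
        rw [DihedralGroup.sr_mul_sr, hsq _ hne'] at h1
        exact lt_irrefl _ h1
    have hcl := S.closure_top (sr_ne_one j) (.r 1)
    have hset : {y | S.rel (.sr j) y} = {DihedralGroup.sr j} := by
      ext y
      constructor
      · intro hy; exact huniq y hy
      · intro hy
        rw [Set.mem_singleton_iff] at hy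
        rw [hy]; exact S.eqv.refl _
    rw [hset, Submonoid.mem_closure_singleton] at hcl
    obtain ⟨m, hm⟩ := hcl
    rcases Nat.even_or_odd' m with ⟨l, rfl | rfl⟩
    · rw [pow_mul, sq, DihedralGroup.sr_mul_self, one_pow] at hm
      have : (1 : ZMod n) = 0 := r_eq_one.1 hm.symm
      have : Fact (1 < n) := ⟨by omega⟩
      exact one_ne_zero (by assumption)
    · rw [pow_succ, pow_mul, sq, DihedralGroup.sr_mul_self, one_pow, one_mul] at hm
      cases hm
  obtain ⟨j, hj⟩ := S.exists_refl hx
  obtain ⟨i, hi, hi2⟩ := hkey j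
  exact ⟨i, hi, S.eqv.trans hj hi2⟩

theorem rel_inv (x : DihedralGroup n) : S.rel x x⁻¹ := by
  by_cases hx : x = 1
  · rw [hx, inv_one]; exact S.eqv.refl _
  · obtain ⟨j, hj⟩ := S.exists_refl hx
    have h := S.inv _ _ hj
    rw [DihedralGroup.inv_sr] at h
    exact S.eqv.trans hj (S.eqv.symm h)

theorem inv_inv' {f : DihedralGroup n → ℤ} (hf : S.Inv f) (d : DihedralGroup n) : f d⁻¹ = f d :=
  (hf _ _ (S.rel_inv d)).symm

theorem sy {f : DihedralGroup n → ℤ} (hf : S.Inv f) : Sy f := by
  intro i
  rw [← DihedralGroup.inv_r]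
  exact S.inv_inv' hf _

/-- functions are determined by their values on rotations -/
theorem det (hn : 2 ≤ n) {f : DihedralGroup n → ℤ} (hf : S.Inv f) {P : ℤ → Prop} (h : ∀ i, P (f (.r i)))
    (d : DihedralGroup n) : P (f d) := by
  rcases d with i | i
  · exact h i
  · obtain ⟨j, _, hj⟩ := S.exists_rot hn (sr_ne_one i)
    rw [hf _ _ hj]; exact h j

theorem conv_comm {f g : DihedralGroup n → ℤ} (hf : S.Inv f) (hg : S.Inv g) : conv f g = conv g f := by
  funext d
  rw [← S.inv_inv' (S.inv_conv hf hg) d, conv, conv]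
  conv_rhs => rw [← Equiv.sum_comp (Equiv.mulLeft d)]
  refine sum_congr rfl fun z _ => ?_
  simp only [Equiv.coe_mulLeft, mul_inv_rev, inv_mul_cancel_right]
  rw [S.inv_inv' hf z, ← S.inv_inv' hg (z⁻¹ * d⁻¹)]
  simp only [mul_inv_rev, inv_inv]
  ring

theorem cpow_conv {f g : DihedralGroup n → ℤ} (hf : S.Inv f) (hg : S.Inv g) (q : ℕ) :
    cpow (conv f g) q = conv (cpow f q) (cpow g q) := by
  apply TM_inj
  have hc : Commute (TM f) (TM g) := by
    rw [Commute, SemiconjBy, ← TM_conv, ← TM_conv, S.conv_comm hf hg]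
  rw [TM_cpow, TM_conv, TM_conv, TM_cpow, TM_cpow, hc.mul_pow]

end SR

end Cfsg.Agent.Lib.DihB
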