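import Cfsg.Agent.Lib.DihB3

/-! Dihedral groups are B-groups, part 4: no class is supported on `p'`-rotations. -/

set_option linter.unusedSectionVars false
set_option linter.unusedSimpArgs false

namespace Cfsg.Agent.Lib.DihB

open Finset

namespace SR

variable {n : ℕ} [NeZero n] (S : SR n)

section stepF

variable {p : ℕ} [Fact p.Prime] {a n' : ℕ}

theorem dstar (hn2 : 2 ≤ n) (hp2 : p ≠ 2) (hn : n = p ^ a * n') {M : ℕ} (haM : a ≤ M)
    (hM : p ^ M ≡ 1 [MOD n']) {f : DihedralGroup n → ℤ} (hf : S.Inv f)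
    (hbad : ∀ i : ZMod n, n' • i ≠ 0 → (p : ℤ) ∣ f (.r i)) (d : DihedralGroup n) :
    (p : ℤ) ∣ f d - cpow f (p ^ M) d := by
  classical
  have hq : ∀ i : ZMod n, n' • i = 0 → p ^ M • i = i := by
    intro i hi
    have h1 : p ^ M • i = 1 • i := by
      rw [← sub_eq_zero]
      have h2 : ((n' : ℤ)) ∣ (1 : ℤ) - ((p ^ M : ℕ) : ℤ) := (Nat.modEq_iff_dvd.1 hM)
      obtain ⟨c, hc⟩ := h2
      have h3 : (1 : ℕ) • i - p ^ M • i = (0 : ZMod n) := by
        have : ((1 : ℕ) : ℤ) • i - ((p ^ M : ℕ) : ℤ) • i = (0 : ZMod n) := by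
          rw [← sub_smul]
          have e : ((1 : ℕ) : ℤ) - ((p ^ M : ℕ) : ℤ) = c * n' := by push_cast; push_cast at hc; linarith
          rw [e, mul_smul, natCast_zsmul, hi, smul_zero]
        simpa using this
      rw [← neg_eq_zero, neg_sub]
      exact h3
    rw [h1, one_smul]
  have key := S.det hn2 (f := f - cpow f (p ^ M)) (S.inv_sub hf (S.inv_cpow hf _)) (P := fun z => (p : ℤ) ∣ z) ?_ d
  · simpa using key
  intro x
  simp only [Pi.sub_apply]
  have h1 := cpow_mod (p := p) hp2 (S.sy hf) M x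
  have h2 : (p : ℤ) ∣ (∑ j ∈ univ.filter (fun j : ZMod n => p ^ M • j = x), f (.r j)) - f (.r x) := by
    by_cases hx : n' • x = 0
    · have hmem : x ∈ univ.filter (fun j : ZMod n => p ^ M • j = x) := by
        rw [mem_filter]; exact ⟨mem_univ _, hq x hx⟩
      rw [← add_sum_erase _ _ hmem, add_sub_cancel_left]
      refine dvd_sum fun j hj => ?_
      rw [mem_erase, mem_filter] at hj
      apply hbad
      intro hj0
      exact hj.1 (by rw [← hj.2.2, hq j hj0])
    · rw [sum_eq_zero, zero_sub, dvd_neg]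
      · exact hbad x hx
      · intro j hj
        exfalso
        rw [mem_filter] at hj
        apply hx
        rw [← hj.2, smul_smul]
        have : n' * p ^ M = n * p ^ (M - a) := by
          rw [hn]
          have : p ^ M = p ^ a * p ^ (M - a) := by rw [← pow_add]; congr 1; omega
          rw [this]; ring
        rw [this, nsmul_eq_mul, Nat.cast_mul, ZMod.natCast_self, zero_mul, zero_mul]
  have h3 := dvd_add h1 h2
  rw [sub_add_sub_cancel] at h3
  rw [← dvd_neg, neg_sub]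
  exact h3

/-- additive group generated by `q`-th powers -/
def BB (q : ℕ) : AddSubgroup (DihedralGroup n → ℤ) :=
  AddSubgroup.closure {h | ∃ γ, S.Inv γ ∧ h = cpow γ q}

theorem decomp (hn2 : 2 ≤ n) (hp2 : p ≠ 2) (hn : n = p ^ a * n') {M : ℕ} (haM : a ≤ M)
    (hM : p ^ M ≡ 1 [MOD n']) {K : ℕ} (hK : K ≤ M - a + 1) (k : ℕ) (hk : k ≤ K) (f : DihedralGroup n → ℤ)
    (hf : S.Inv f) (hbad : ∀ i : ZMod n, n' • i ≠ 0 → (p : ℤ) ^ k ∣ f (.r i)) :
    ∃ β ∈ S.BB (p ^ M), ∃ γ, S.Inv γ ∧ f = β + ((p : ℤ) ^ k) • γ := by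
  have hp := (Fact.out : p.Prime)
  induction k generalizing f with
  | zero => exact ⟨0, zero_mem _, f, hf, by simp⟩
  | succ k ih =>
    have hd := S.dstar hn2 hp2 hn haM hM hf (fun i hi => (dvd_pow_self _ (Nat.succ_ne_zero k)).trans (hbad i hi))
    choose g hg using hd
    have hg1 : f = cpow f (p ^ M) + (p : ℤ) • g := by
      funext d
      have := hg d
      simp only [Pi.add_apply, Pi.smul_apply, smul_eq_mul]
      linarith
    have hgInv : S.Inv g := by
      intro x y h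
      have h1 := hg x
      have h2 := hg y
      rw [hf x y h, S.inv_cpow hf _ x y h, h2] at h1
      have hp0 : (p : ℤ) ≠ 0 := by exact_mod_cast hp.ne_zero
      exact (mul_left_cancel₀ hp0 h1).symm
    obtain ⟨β', hβ', γ, hγ, he⟩ := ih (by omega) g hgInv (by
      intro i hi
      have h1 := hbad i hi
      have h2 := cpow_star (p := p) hp2 hn (S.sy hf) M haM i hi
      have h3 : (p : ℤ) ^ (k + 1) ∣ cpow f (p ^ M) (.r i) := (pow_dvd_pow _ (by omega)).trans h2
      have h4 := dvd_sub h1 h3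
      rw [hg (.r i), pow_succ'] at h4
      have hp0 : (p : ℤ) ≠ 0 := by exact_mod_cast hp.ne_zero
      exact (mul_dvd_mul_iff_left hp0).1 h4)
    refine ⟨cpow f (p ^ M) + (p : ℤ) • β', ?_, γ, hγ, ?_⟩
    · exact add_mem (AddSubgroup.subset_closure ⟨f, hf, rfl⟩) (zsmul_mem hβ' _)
    · conv_lhs => rw [hg1, he]
      rw [smul_add, smul_smul, ← pow_succ', add_assoc]

theorem BB_mul (hp2 : p ≠ 2) (hn : n = p ^ a * n') {M : ℕ} (haM : a ≤ M)
    {K : ℕ} (hK : K ≤ M - a + 1) {β β' : DihedralGroup n → ℤ} (hβ : β ∈ S.BB (p ^ M)) (hβ' : β' ∈ S.BB (p ^ M))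
    (x : ZMod n) (hx : n' • x ≠ 0) : (p : ℤ) ^ K ∣ conv β β' (.r x) := by
  unfold BB at hβ hβ'
  induction hβ using AddSubgroup.closure_induction with
  | mem u hu =>
    obtain ⟨γ, hγ, rfl⟩ := hu
    induction hβ' using AddSubgroup.closure_induction with
    | mem v hv =>
      obtain ⟨γ', hγ', rfl⟩ := hv
      rw [← S.cpow_conv hγ hγ']
      exact (pow_dvd_pow _ hK).trans (cpow_star (p := p) hp2 hn (S.sy (S.inv_conv hγ hγ')) M haM x hx)
    | zero =>
      have : conv (cpow γ (p ^ M)) 0 = 0 := by funext d; simp [conv]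
      rw [this]; exact dvd_zero _
    | add u v _ _ hu hv => rw [conv_add_right]; exact dvd_add hu hv
    | neg u _ hu => rw [conv_neg_right]; exact (dvd_neg).2 hu
  | zero =>
    have : conv 0 β' = 0 := by funext d; simp [conv]
    rw [this]; exact dvd_zero _
  | add u v _ _ hu hv => rw [conv_add_left]; exact dvd_add hu hv
  | neg u _ hu => rw [conv_neg_left]; exact (dvd_neg).2 hu

/-- functions supported on `p'`-rotations (among rotations) are closed under convolution -/
theorem VV (hn2 : 2 ≤ n) (hp2 : p ≠ 2) (hn : n = p ^ a * n') (hn' : ¬ p ∣ n') {f g : DihedralGroup n → ℤ}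
    (hf : S.Inv f) (hg : S.Inv g) (hf0 : ∀ i : ZMod n, n' • i ≠ 0 → f (.r i) = 0)
    (hg0 : ∀ i : ZMod n, n' • i ≠ 0 → g (.r i) = 0) (x : ZMod n) (hx : n' • x ≠ 0) : conv f g (.r x) = 0 := by
  have hp := (Fact.out : p.Prime)
  have hn'0 : 0 < n' := by
    rcases Nat.eq_zero_or_pos n' with h | h
    · exact absurd (by rw [h]; exact dvd_zero p) hn'
    · exact h
  have hall : ∀ K : ℕ, (p : ℤ) ^ K ∣ conv f g (.r x) := by
    intro K
    let M := n'.totient * (a + K)
    have ht : 1 ≤ n'.totient := Nat.totient_pos.2 hn'0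
    have hM1 : a + K ≤ M := Nat.le_mul_of_pos_left _ ht
    have hM : p ^ M ≡ 1 [MOD n'] := by
      have h1 := Nat.ModEq.pow_totient ((Nat.Prime.coprime_iff_not_dvd hp).2 hn')
      have h2 := h1.pow (a + K)
      rwa [← pow_mul, one_pow] at h2
    obtain ⟨β, hβ, γ, _, he⟩ := S.decomp hn2 hp2 hn (by omega) hM (K := K) (by omega) K le_rfl f hf
      (fun i hi => by rw [hf0 i hi]; exact dvd_zero _)
    obtain ⟨β', hβ', γ', _, he'⟩ := S.decomp hn2 hp2 hn (by omega) hM (K := K) (by omega) K le_rfl g hg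
      (fun i hi => by rw [hg0 i hi]; exact dvd_zero _)
    rw [he, he', conv_add_left, conv_add_right, conv_smul_left, conv_smul_right]
    simp only [Pi.add_apply, Pi.smul_apply, smul_eq_mul]
    exact dvd_add (dvd_add (S.BB_mul hp2 hn (by omega) (by omega) hβ hβ' x hx) (dvd_mul_right _ _))
      (dvd_mul_right _ _)
  obtain ⟨K, hK⟩ : ∃ K : ℕ, |conv f g (.r x)| < (p : ℤ) ^ K := by
    obtain ⟨K, hK⟩ := pow_unbounded_of_one_lt (|conv f g (.r x)|) (show (1 : ℤ) < (p : ℤ) by exact_mod_cast hp.one_lt)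
    exact ⟨K, hK⟩
  exact Int.eq_zero_of_abs_lt_dvd (hall K) hK

/-- **Step F**: every nontrivial class contains a rotation of order divisible by `p`. -/
theorem stepF (hn2 : 2 ≤ n) (hp2 : p ≠ 2) (hn : n = p ^ a * n') (ha : 1 ≤ a) (hn' : ¬ p ∣ n')
    {d : DihedralGroup n} (hd : d ≠ 1) : ∃ i, S.rel d (.r i) ∧ n' • i ≠ 0 := by
  have hp := (Fact.out : p.Prime)
  by_contra hcon
  push Not at hcon
  have h := S.mulClosed_triv (fun x => ∀ i, S.rel x (.r i) → n' • i = 0) ?_ ?_ hd hcon (.r 1) 1 (S.eqv.refl _)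
  · rw [nsmul_eq_mul, mul_one, ZMod.natCast_eq_zero_iff] at h
    have hn'0 : 0 < n' := by
      rcases Nat.eq_zero_or_pos n' with h | h
      · exact absurd (by rw [h]; exact dvd_zero p) hn'
      · exact h
    have h1 := Nat.le_of_dvd hn'0 h
    have h2 : 2 ≤ p ^ a := le_trans hp.two_le (Nat.le_self_pow (by omega) p)
    rw [hn] at h1
    nlinarith
  · intro x y hx hy i hi
    by_contra hne
    have h0 := S.VV hn2 hp2 hn hn' (S.inv_ind x) (S.inv_ind y)
      (fun i hi => S.ind_zero fun h => hi (hx i h)) (fun i hi => S.ind_zero fun h => hi (hy i h)) i hne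
    have h1 := conv_pos (S.ind_nonneg x) (S.ind_nonneg y) (x := x) (y := y)
      (by rw [S.ind_pos (S.eqv.refl _)]; norm_num) (by rw [S.ind_pos (S.eqv.refl _)]; norm_num)
    rw [S.inv_conv (S.inv_ind x) (S.inv_ind y) _ _ hi, h0] at h1
    exact lt_irrefl _ h1
  · intro x y hxy hx i hi
    exact hx i (S.eqv.trans hxy hi)

end stepF

end SR

end Cfsg.Agent.Lib.DihB
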