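import Cfsg.Agent.Lib.DihB4

/-! Dihedral groups are B-groups, part 5: the rational Schur ring (Dirichlet). -/

set_option linter.unusedSectionVars false
set_option linter.unusedSimpArgs false

namespace Cfsg.Agent.Lib.DihB

open Finset

section

variable {n : ℕ} [NeZero n]

theorem conv_mod {ℓ : ℤ} {u v f g : DihedralGroup n → ℤ} (hu : ∀ d, ℓ ∣ u d - f d) (hv : ∀ d, ℓ ∣ v d - g d)
    (d : DihedralGroup n) : ℓ ∣ conv u v d - conv f g d := by
  rw [conv, conv, ← sum_sub_distrib]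
  refine dvd_sum fun z _ => ?_
  have e : u z * v (z⁻¹ * d) - f z * g (z⁻¹ * d) = (u z - f z) * v (z⁻¹ * d) + f z * (v (z⁻¹ * d) - g (z⁻¹ * d)) := by
    ring
  rw [e]
  exact dvd_add (Dvd.dvd.mul_right (hu z) _) (Dvd.dvd.mul_left (hv _) _)

theorem nsmul_inj_of_coprime {ℓ : ℕ} (h : ℓ.Coprime n) {i j : ZMod n} (hij : ℓ • i = ℓ • j) : i = j := by
  rw [nsmul_eq_mul, nsmul_eq_mul] at hij
  have hu : IsUnit (ℓ : ZMod n) := (ZMod.isUnit_iff_coprime ℓ n).2 h
  exact hu.mul_left_cancel hij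

theorem nsmul_surj_of_coprime {ℓ : ℕ} (h : ℓ.Coprime n) (x : ZMod n) : ∃ j : ZMod n, ℓ • j = x := by
  have hu : IsUnit (ℓ : ZMod n) := (ZMod.isUnit_iff_coprime ℓ n).2 h
  obtain ⟨u, hu⟩ := hu
  refine ⟨(↑u⁻¹ : ZMod n) * x, ?_⟩
  rw [nsmul_eq_mul, ← hu, Units.mul_inv_cancel_left]

/-- Frobenius at a prime not dividing `n`. -/
theorem cpow_coprime {ℓ : ℕ} [Fact ℓ.Prime] (hℓ2 : ℓ ≠ 2) (hℓ : ℓ.Coprime n) {γ : DihedralGroup n → ℤ}
    (hγ : Sy γ) (i : ZMod n) : (ℓ : ℤ) ∣ cpow γ ℓ (.r (ℓ • i)) - γ (.r i) := by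
  classical
  have h := cpow_mod (p := ℓ) hℓ2 hγ 1 (ℓ • i)
  simp only [pow_one] at h
  have hs : univ.filter (fun j : ZMod n => ℓ • j = ℓ • i) = {i} := by
    ext j
    rw [mem_filter, mem_singleton]
    exact ⟨fun h => nsmul_inj_of_coprime hℓ h.2, fun h => ⟨mem_univ _, by rw [h]⟩⟩
  rw [hs, sum_singleton] at h
  exact h

end

namespace SR

variable {n : ℕ} [NeZero n] (S : SR n)

/-- rationality of a function -/
def Ra (f : DihedralGroup n → ℤ) : Prop :=
  ∀ (i : ZMod n) (m : ℕ), m.Coprime (addOrderOf i) → f (.r (m • i)) = f (.r i)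

theorem cpow_rat (hn2 : 2 ≤ n) {ℓ : ℕ} [Fact ℓ.Prime] (hℓ2 : ℓ ≠ 2) (hℓ : ℓ.Coprime n)
    {f : DihedralGroup n → ℤ} (hf : S.Inv f) (hr : Ra f) (d : DihedralGroup n) :
    (ℓ : ℤ) ∣ cpow f ℓ d - f d := by
  have key := S.det hn2 (f := cpow f ℓ - f) (S.inv_sub (S.inv_cpow hf _) hf) (P := fun z => (ℓ : ℤ) ∣ z) ?_ d
  · simpa using key
  intro x
  obtain ⟨j, rfl⟩ := nsmul_surj_of_coprime hℓ x
  have h := cpow_coprime hℓ2 hℓ (S.sy hf) j
  simp only [Pi.sub_apply]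
  rw [hr j ℓ (Nat.Coprime.coprime_dvd_right (by
    have := addOrderOf_dvd_natCard (G := ZMod n) j
    rwa [Nat.card_zmod] at this) hℓ)]
  exact h

theorem rat_mul (hn2 : 2 ≤ n) {f g : DihedralGroup n → ℤ} (hf : S.Inv f) (hfr : Ra f) (hg : S.Inv g)
    (hgr : Ra g) : Ra (conv f g) := by
  intro i m hm
  have ho : 0 < addOrderOf i := addOrderOf_pos i
  haveI : NeZero (addOrderOf i) := ⟨ho.ne'⟩
  have hu : IsUnit (m : ZMod (addOrderOf i)) := (ZMod.isUnit_iff_coprime _ _).2 hm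
  obtain ⟨ℓ, hℓ, hℓp, hℓm⟩ := Nat.forall_exists_prime_gt_and_eq_mod hu
    (n + 2 + (conv f g (.r (m • i)) - conv f g (.r i)).natAbs)
  haveI : Fact ℓ.Prime := ⟨hℓp⟩
  have hcop : ℓ.Coprime n := by
    refine (Nat.Prime.coprime_iff_not_dvd hℓp).2 fun h => ?_
    have := Nat.le_of_dvd (by omega) h
    omega
  have hℓ2 : ℓ ≠ 2 := by omega
  have e : ℓ • i = m • i := by
    rw [nsmul_eq_nsmul_iff_modEq]
    exact (ZMod.natCast_eq_natCast_iff _ _ _).1 hℓm
  have h1 := cpow_coprime hℓ2 hcop (S.sy (S.inv_conv hf hg)) i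
  rw [S.cpow_conv hf hg, e] at h1
  have h2 := conv_mod (S.cpow_rat hn2 hℓ2 hcop hf hfr) (S.cpow_rat hn2 hℓ2 hcop hg hgr) (.r (m • i))
  have h3 : (ℓ : ℤ) ∣ conv f g (.r (m • i)) - conv f g (.r i) := by
    have := dvd_sub h1 h2
    rw [sub_sub_sub_cancel_left] at this
    exact this
  have h4 : conv f g (.r (m • i)) - conv f g (.r i) = 0 := by
    apply Int.eq_zero_of_abs_lt_dvd h3
    rw [Int.abs_eq_natAbs]
    exact_mod_cast (by omega : (conv f g (.r (m • i)) - conv f g (.r i)).natAbs < ℓ)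
  linarith

/-- the generating relation -/
def rr (x y : DihedralGroup n) : Prop :=
  S.rel x y ∨ ∃ (i : ZMod n) (m : ℕ), m.Coprime (addOrderOf i) ∧ x = .r i ∧ y = .r (m • i)

theorem rr_inv {f : DihedralGroup n → ℤ} :
    (∀ x y, Relation.EqvGen S.rr x y → f x = f y) ↔ S.Inv f ∧ Ra f := by
  constructor
  · intro h
    exact ⟨fun x y hxy => h x y (.rel _ _ (Or.inl hxy)),
      fun i m hm => (h _ _ (.rel _ _ (Or.inr ⟨i, m, hm, rfl, rfl⟩))).symm⟩
  · rintro ⟨h1, h2⟩ x y hxy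
    induction hxy with
    | rel x y h =>
      rcases h with h | ⟨i, m, hm, rfl, rfl⟩
      · exact h1 x y h
      · exact (h2 i m hm).symm
    | refl x => rfl
    | symm x y _ ih => exact ih.symm
    | trans x y z _ _ ih1 ih2 => exact ih1.trans ih2

/-- the rational Schur ring -/
def rat (hn2 : 2 ≤ n) : SR n where
  rel := Relation.EqvGen S.rr
  eqv := Relation.EqvGen.is_equivalence _
  one := by
    have key : ∀ x y, Relation.EqvGen S.rr x y → (x = 1 ↔ y = 1) := by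
      intro x y h
      induction h with
      | rel x y h =>
        rcases h with h | ⟨i, m, hm, rfl, rfl⟩
        · constructor
          · rintro rfl; exact S.one _ h
          · rintro rfl; exact S.one _ (S.eqv.symm h)
        · rw [r_eq_one, r_eq_one]
          constructor
          · rintro rfl; simp
          · intro h
            have h1 : addOrderOf i ∣ m := addOrderOf_dvd_iff_nsmul_eq_zero.2 h
            have h2 : addOrderOf i = 1 := Nat.eq_one_of_dvd_coprimes hm h1 dvd_rfl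
            exact AddMonoid.addOrderOf_eq_one_iff.1 h2
      | refl x => rfl
      | symm x y _ ih => exact ih.symm
      | trans x y z _ _ ih1 ih2 => exact ih1.trans ih2
    intro x h
    exact (key 1 x h).1 rfl
  inv := by
    intro x y h
    induction h with
    | rel x y h =>
      rcases h with h | ⟨i, m, hm, rfl, rfl⟩
      · exact .rel _ _ (Or.inl (S.inv _ _ h))
      · refine .rel _ _ (Or.inr ⟨-i, m, by rwa [addOrderOf_neg], ?_, ?_⟩)
        · rw [DihedralGroup.inv_r]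
        · rw [DihedralGroup.inv_r, smul_neg]
    | refl x => exact .refl _
    | symm x y _ ih => exact .symm _ _ ih
    | trans x y z _ _ ih1 ih2 => exact .trans _ _ _ ih1 ih2
  mul := by
    intro f g hf hg
    rw [S.rr_inv] at hf hg
    exact S.rr_inv.2 ⟨S.inv_conv hf.1 hg.1, S.rat_mul hn2 hf.1 hf.2 hg.1 hg.2⟩
  prim := by
    intro f hf ht
    exact S.prim f (S.rr_inv.1 hf).1 ht

theorem rat_inv (hn2 : 2 ≤ n) {f : DihedralGroup n → ℤ} : (S.rat hn2).Inv f ↔ S.Inv f ∧ Ra f := S.rr_inv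

theorem rat_rel (hn2 : 2 ≤ n) (i : ZMod n) (m : ℕ) (hm : m.Coprime (addOrderOf i)) :
    (S.rat hn2).rel (.r i) (.r (m • i)) := .rel _ _ (Or.inr ⟨i, m, hm, rfl, rfl⟩)

end SR

end Cfsg.Agent.Lib.DihB
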