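import Cfsg.Agent.Lib.DihB5

/-! Dihedral groups are B-groups, part 6: invariance under the subgroup of order `p`. -/

set_option linter.unusedSectionVars false
set_option linter.unusedSimpArgs false

namespace Cfsg.Agent.Lib.DihB

open Finset

section P1

variable {n : ℕ} [NeZero n] {p : ℕ} [Fact p.Prime]

theorem exists_g (hpn : p ∣ n) : ∃ t : ZMod n, p • t = 0 ∧ t ≠ 0 := by
  have hp := (Fact.out : p.Prime)
  have hn0 : 0 < n := NeZero.pos n
  obtain ⟨m, rfl⟩ := hpn
  have hm : 0 < m := Nat.pos_of_mul_pos_left hn0 |> fun _ => by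
    rcases Nat.eq_zero_or_pos m with h | h
    · subst h; simp at hn0
    · exact h
  refine ⟨(m : ZMod (p * m)), ?_, ?_⟩
  · rw [nsmul_eq_mul, ← Nat.cast_mul, ZMod.natCast_self]
  · rw [Ne, ZMod.natCast_eq_zero_iff]
    intro h
    have := Nat.le_of_dvd hm h
    have := hp.two_le
    nlinarith

/-- an element of order `p` generates the `p`-torsion -/
theorem mem_P1 {g t : ZMod n} (hg : p • g = 0) (hg0 : g ≠ 0) (ht : p • t = 0) : ∃ s : ℕ, s < p ∧ t = s • g := by
  classical
  have hp := (Fact.out : p.Prime)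
  have ho : addOrderOf g = p := addOrderOf_eq_prime hg hg0
  have hinj : Set.InjOn (fun s : ℕ => s • g) (range p : Finset ℕ) := by
    intro a ha b hb hab
    simp only [coe_range, Set.mem_Iio] at ha hb
    have := (nsmul_eq_nsmul_iff_modEq).1 hab
    rw [ho] at this
    exact Nat.ModEq.eq_of_lt_of_lt this ha hb
  have hsub : (range p).image (fun s : ℕ => s • g) ⊆ univ.filter (fun a : ZMod n => p • a = 0) := by
    intro x hx
    rw [mem_image] at hx
    obtain ⟨s, _, rfl⟩ := hx
    rw [mem_filter]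
    exact ⟨mem_univ _, by rw [smul_comm, hg, smul_zero]⟩
  have hcard : ((range p).image (fun s : ℕ => s • g)).card = p := by
    rw [card_image_of_injOn hinj, card_range]
  have hle : (univ.filter (fun a : ZMod n => p • a = 0)).card ≤ p := IsAddCyclic.card_nsmul_eq_zero_le hp.pos
  have heq := eq_of_subset_of_card_le hsub (by rw [hcard]; exact hle)
  have : t ∈ univ.filter (fun a : ZMod n => p • a = 0) := by rw [mem_filter]; exact ⟨mem_univ _, ht⟩
  rw [← heq, mem_image] at this
  obtain ⟨s, hs, rfl⟩ := this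
  exact ⟨s, mem_range.1 hs, rfl⟩

theorem card_P1 (hpn : p ∣ n) [DecidablePred fun a : ZMod n => p • a = 0] :
    (univ.filter (fun a : ZMod n => p • a = 0)).card = p := by
  classical
  have hp := (Fact.out : p.Prime)
  obtain ⟨g, hg, hg0⟩ := exists_g (n := n) hpn
  have ho : addOrderOf g = p := addOrderOf_eq_prime hg hg0
  have hinj : Set.InjOn (fun s : ℕ => s • g) (range p : Finset ℕ) := by
    intro a ha b hb hab
    simp only [coe_range, Set.mem_Iio] at ha hb
    have := (nsmul_eq_nsmul_iff_modEq).1 hab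
    rw [ho] at this
    exact Nat.ModEq.eq_of_lt_of_lt this ha hb
  have heq : univ.filter (fun a : ZMod n => p • a = 0) = (range p).image (fun s : ℕ => s • g) := by
    ext x
    rw [mem_filter, mem_image]
    constructor
    · rintro ⟨_, hx⟩
      obtain ⟨s, hs, rfl⟩ := mem_P1 hg hg0 hx
      exact ⟨s, mem_range.2 hs, rfl⟩
    · rintro ⟨s, _, rfl⟩
      exact ⟨mem_univ _, by rw [smul_comm, hg, smul_zero]⟩
  rw [heq, card_image_of_injOn hinj, card_range]

/-- `k` and `k + t` generate the same subgroup if `p² ∣ o(k)` -/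
theorem lemmaU {k t : ZMod n} (hk : p ^ 2 ∣ addOrderOf k) (ht : p • t = 0) :
    ∃ m : ℕ, m.Coprime (addOrderOf k) ∧ m • k = k + t := by
  have hp := (Fact.out : p.Prime)
  set o := addOrderOf k with ho
  have ho0 : 0 < o := addOrderOf_pos k
  have hpo : p ∣ o := (dvd_pow_self p two_ne_zero).trans hk
  have hg : p • ((o / p) • k) = 0 := by
    rw [smul_smul, Nat.mul_div_cancel' hpo, ho, addOrderOf_nsmul_eq_zero]
  have hg0 : (o / p) • k ≠ 0 := by
    intro h
    have h1 := addOrderOf_dvd_iff_nsmul_eq_zero.2 h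
    have h2 : 0 < o / p := Nat.div_pos (Nat.le_of_dvd ho0 hpo) hp.pos
    have h3 := Nat.le_of_dvd h2 h1
    have h4 : o / p < o := Nat.div_lt_self ho0 hp.one_lt
    omega
  obtain ⟨s, _, rfl⟩ := mem_P1 hg hg0 ht
  refine ⟨1 + s * (o / p), ?_, ?_⟩
  · rw [Nat.coprime_iff_gcd_eq_one]
    by_contra hne
    obtain ⟨l, hl, hld⟩ := Nat.exists_prime_and_dvd hne
    have h1 : l ∣ 1 + s * (o / p) := hld.trans (Nat.gcd_dvd_left _ _)
    have h2 : l ∣ o := hld.trans (Nat.gcd_dvd_right _ _)
    have h3 : l ∣ o / p := by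
      by_cases hlp : l = p
      · subst hlp
        obtain ⟨c, hc⟩ := hk
        rw [hc, sq, mul_assoc, Nat.mul_div_cancel_left _ hp.pos]
        exact dvd_mul_right _ _
      · have h4 : o = p * (o / p) := (Nat.mul_div_cancel' hpo).symm
        rw [h4] at h2
        exact (Nat.Coprime.dvd_of_dvd_mul_left ((Nat.coprime_primes hl hp).2 hlp) h2)
    have h5 : l ∣ 1 := (Nat.dvd_add_left (Dvd.dvd.mul_left h3 s)).1 h1
    exact hl.one_lt.ne' (Nat.dvd_one.1 h5)
  · rw [add_smul, one_smul, mul_smul]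

theorem sq_dvd_order {a n' : ℕ} (hn : n = p ^ a * n') {k : ZMod n} (hk : n' • (p • k) ≠ 0) :
    p ^ 2 ∣ addOrderOf k := by
  have hp := (Fact.out : p.Prime)
  have ho0 : addOrderOf k ≠ 0 := (addOrderOf_pos k).ne'
  obtain ⟨b, e, he, hoe⟩ := Nat.exists_eq_pow_mul_and_not_dvd ho0 p hp.ne_one
  by_contra hcon
  have hb : b ≤ 1 := by
    by_contra hb
    apply hcon
    rw [hoe]
    exact Dvd.dvd.mul_right (pow_dvd_pow _ (by omega)) _
  have hon : addOrderOf k ∣ n := by
    have := addOrderOf_dvd_natCard (G := ZMod n) k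
    rwa [Nat.card_zmod] at this
  have he2 : e ∣ n' := by
    have h1 : e ∣ p ^ a * n' := by
      rw [← hn]
      exact (Dvd.intro_left _ hoe.symm).trans hon
    exact Nat.Coprime.dvd_of_dvd_mul_left
      (Nat.Coprime.pow_right _ ((Nat.Prime.coprime_iff_not_dvd hp).2 he).symm) h1
  apply hk
  rw [smul_smul, ← addOrderOf_dvd_iff_nsmul_eq_zero, hoe, mul_comm n' p]
  exact mul_dvd_mul (by
    have := pow_dvd_pow p hb
    simpa using this) he2

end P1

namespace SR

variable {n : ℕ} [NeZero n] (S : SR n)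

/-- rational Schur ring -/
def Rat' : Prop := ∀ (i : ZMod n) (m : ℕ), m.Coprime (addOrderOf i) → S.rel (.r i) (.r (m • i))

/-- invariance of rotation parts under the subgroup of order `p`, outside this subgroup -/
def P1 (p : ℕ) : Prop := ∀ i t : ZMod n, p • t = 0 → p • i ≠ 0 → S.rel (.r i) (.r (i + t))

theorem P1_even {a : ℕ} (hn : n = 2 ^ a) (hr : S.Rat') : S.P1 2 := by
  intro i t ht hi
  have : Fact (Nat.Prime 2) := ⟨Nat.prime_two⟩
  have h4 : 2 ^ 2 ∣ addOrderOf i := by
    apply sq_dvd_order (p := 2) (a := a) (n' := 1) (by rw [hn, mul_one])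
    rwa [one_smul]
  obtain ⟨m, hm, hm2⟩ := lemmaU h4 ht
  rw [← hm2]
  exact hr i m hm

theorem P1_odd (hn2 : 2 ≤ n) {p : ℕ} [Fact p.Prime] (hp2 : p ≠ 2) {a n' : ℕ} (hn : n = p ^ a * n') (ha : 1 ≤ a)
    (hn' : ¬ p ∣ n') (hr : S.Rat') : S.P1 p := by
  classical
  have hp := (Fact.out : p.Prime)
  have hpn : p ∣ n := by rw [hn]; exact Dvd.dvd.mul_right (dvd_pow_self p (by omega)) _
  intro i t ht hi
  by_contra hcon
  set f := S.ind (.r i) with hf
  have hfi : S.Inv f := S.inv_ind _
  have hmod := cpow_mod (p := p) hp2 (S.sy hfi) 1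
  simp only [pow_one] at hmod
  have hinv := S.inv_cpow hfi p
  obtain ⟨j', hj', hj'2⟩ := S.stepF hn2 hp2 hn ha hn' (d := .r (p • i)) (fun h => hi (r_eq_one.1 h))
  have hfib : ∀ k : ZMod n, univ.filter (fun j : ZMod n => p • j = p • k) =
      (univ.filter (fun a : ZMod n => p • a = 0)).image (fun a => k + a) := by
    intro k
    ext x
    rw [mem_filter, mem_image]
    constructor
    · rintro ⟨_, hx⟩
      refine ⟨x - k, ?_, by ring⟩
      rw [mem_filter]
      exact ⟨mem_univ _, by rw [smul_sub, hx, sub_self]⟩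
    · rintro ⟨b, hb, rfl⟩
      rw [mem_filter] at hb
      exact ⟨mem_univ _, by rw [smul_add, hb.2, add_zero]⟩
  have hfibsum : ∀ k : ZMod n, ∑ j ∈ univ.filter (fun j : ZMod n => p • j = p • k), f (.r j) =
      ∑ a ∈ univ.filter (fun a : ZMod n => p • a = 0), f (.r (k + a)) := by
    intro k
    rw [hfib k, sum_image (fun x _ y _ h => add_left_cancel h)]
  -- the count over `j'` is divisible by `p`
  have h1 : (p : ℤ) ∣ ∑ j ∈ univ.filter (fun j : ZMod n => p • j = j'), f (.r j) := by
    by_cases hex : ∃ k : ZMod n, p • k = j'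
    · obtain ⟨k, rfl⟩ := hex
      rw [hfibsum k, sum_congr rfl (g := fun _ => f (.r k)), sum_const, card_P1 hpn, nsmul_eq_mul]
      · exact dvd_mul_right _ _
      · intro b hb
        rw [mem_filter] at hb
        obtain ⟨m, hm, hm2⟩ := lemmaU (sq_dvd_order hn hj'2) hb.2
        rw [← hm2]
        exact (hfi _ _ (hr k m hm)).symm
    · rw [sum_eq_zero]
      · exact dvd_zero _
      · intro j hj
        rw [mem_filter] at hj
        exact absurd ⟨j, hj.2⟩ hex
  have h2 : (p : ℤ) ∣ cpow f p (.r j') := by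
    have := dvd_add (hmod j') h1
    rwa [sub_add_cancel] at this
  rw [← hinv _ _ hj'] at h2
  have h3 : (p : ℤ) ∣ ∑ j ∈ univ.filter (fun j : ZMod n => p • j = p • i), f (.r j) := by
    have := dvd_sub h2 (hmod (p • i))
    rwa [sub_sub_cancel] at this
  rw [hfibsum i] at h3
  have h4 : 0 < ∑ a ∈ univ.filter (fun a : ZMod n => p • a = 0), f (.r (i + a)) := by
    have h0 : (0 : ZMod n) ∈ univ.filter (fun a : ZMod n => p • a = 0) := by
      rw [mem_filter]; exact ⟨mem_univ _, smul_zero _⟩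
    have := single_le_sum (f := fun a => f (.r (i + a))) (fun a _ => S.ind_nonneg _ _) h0
    simp only [add_zero] at this
    have e : f (.r i) = 1 := S.ind_pos (S.eqv.refl _)
    rw [e] at this
    linarith
  have h5 : ∑ a ∈ univ.filter (fun a : ZMod n => p • a = 0), f (.r (i + a)) < p := by
    have : ∑ a ∈ univ.filter (fun a : ZMod n => p • a = 0), f (.r (i + a)) <
        ∑ a ∈ univ.filter (fun a : ZMod n => p • a = 0), (1 : ℤ) := by
      apply sum_lt_sum
      · intro b _
        show S.ind _ _ ≤ 1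
        unfold ind; split_ifs <;> norm_num
      · refine ⟨t, ?_, ?_⟩
        · rw [mem_filter]; exact ⟨mem_univ _, ht⟩
        · have : f (.r (i + t)) = 0 := S.ind_zero hcon
          rw [this]; norm_num
    rw [sum_const, card_P1 hpn] at this
    simpa using this
  have := Int.le_of_dvd h4 h3
  omega

/-- rotation-invariance -/
def RI (p : ℕ) (f : DihedralGroup n → ℤ) : Prop := ∀ i t : ZMod n, p • t = 0 → f (.r (i + t)) = f (.r i)

variable {p : ℕ} [Fact p.Prime] {t0 : ZMod n}

theorem rel_t0 (hr : S.Rat') (ht0 : p • t0 = 0) (ht00 : t0 ≠ 0) {t : ZMod n} (ht : p • t = 0) (ht' : t ≠ 0) :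
    S.rel (.r t0) (.r t) := by
  have hp := (Fact.out : p.Prime)
  obtain ⟨s, hs, rfl⟩ := mem_P1 ht0 ht00 ht
  apply hr
  rw [addOrderOf_eq_prime ht0 ht00]
  have hs0 : s ≠ 0 := by rintro rfl; exact ht' (zero_smul _ _)
  exact (Nat.coprime_of_lt_prime hs0 hs hp).symm

theorem delta_r (i : ZMod n) : (delta : DihedralGroup n → ℤ) (.r i) = if i = 0 then 1 else 0 := by
  simp only [delta, r_eq_one]

theorem delta_sr (i : ZMod n) : (delta : DihedralGroup n → ℤ) (.sr i) = 0 := by
  simp only [delta, if_neg (sr_ne_one i)]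

theorem RI_sub (hr : S.Rat') (hP : S.P1 p) (ht0 : p • t0 = 0) (ht00 : t0 ≠ 0) {f : DihedralGroup n → ℤ}
    (hf : S.Inv f) : RI p (f - (f 1 - f (.r t0)) • delta) := by
  have hval : ∀ i : ZMod n, p • i = 0 →
      (f - (f 1 - f (.r t0)) • delta : DihedralGroup n → ℤ) (.r i) = f (.r t0) := by
    intro i hi
    simp only [Pi.sub_apply, Pi.smul_apply, delta_r, smul_eq_mul]
    split_ifs with h
    · subst h
      rw [← DihedralGroup.one_def]; ring
    · rw [mul_zero, sub_zero]
      exact (hf _ _ (S.rel_t0 hr ht0 ht00 hi h)).symm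
  intro i t ht
  by_cases hi : p • i = 0
  · rw [hval i hi, hval (i + t) (by rw [smul_add, hi, ht, add_zero])]
  · have h1 : i ≠ 0 := by rintro rfl; exact hi (smul_zero _)
    have h2 : i + t ≠ 0 := by
      intro h
      apply hi
      have : p • (i + t) = 0 := by rw [h, smul_zero]
      rwa [smul_add, ht, add_zero] at this
    simp only [Pi.sub_apply, Pi.smul_apply, delta_r, if_neg h1, if_neg h2, smul_zero, sub_zero]
    exact (hf _ _ (hP i t ht hi)).symm

theorem lemmaL4 (hr : S.Rat') (hP : S.P1 p) (ht0 : p • t0 = 0) (ht00 : t0 ≠ 0) {f g : DihedralGroup n → ℤ}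
    (hf : S.Inv f) (hg : S.Inv g) (hfR : RI p f) (hgR : RI p g) :
    ∃ c c' : ℤ, conv f g = c • delta + c' • (fun _ => 1) := by
  have hh := S.inv_conv hf hg
  set c := conv f g 1 - conv f g (.r t0) with hc
  have hR := S.RI_sub hr hP ht0 ht00 hh
  rw [← hc] at hR
  have hInv : S.Inv (conv f g - c • delta) := S.inv_sub hh (S.inv_smul S.inv_delta c)
  have hsr : ∀ k : ZMod n, conv f g (.sr (k - t0)) = conv f g (.sr k) := by
    intro k
    have hnt : p • (-t0) = 0 := by rw [smul_neg, ht0, neg_zero]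
    rw [conv_sr, conv_sr]
    congr 1
    · rw [← Equiv.sum_comp (Equiv.addRight t0)]
      refine sum_congr rfl fun i _ => ?_
      simp only [Equiv.coe_addRight]
      rw [hfR i t0 ht0]
      congr 3; ring
    · refine sum_congr rfl fun i _ => ?_
      have : k - t0 - i = (k - i) + (-t0) := by ring
      rw [this, hgR _ _ hnt]
  have hprim := S.prim (conv f g - c • delta) hInv ⟨.r t0, fun h => ht00 (r_eq_one.1 h), ?_⟩
  · refine ⟨c, (conv f g - c • delta : DihedralGroup n → ℤ) 1, ?_⟩
    funext d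
    have := hprim d
    simp only [Pi.sub_apply, Pi.smul_apply, smul_eq_mul, Pi.add_apply, mul_one] at this ⊢
    linarith
  · intro d
    rcases d with i | i
    · rw [DihedralGroup.r_mul_r, add_comm]
      exact hR i t0 ht0
    · rw [DihedralGroup.r_mul_sr]
      simp only [Pi.sub_apply, Pi.smul_apply, delta_sr, smul_zero, sub_zero]
      exact hsr i

end SR

end Cfsg.Agent.Lib.DihB
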