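import Cfsg.Agent.Lib.DihB6

/-! Dihedral groups are B-groups, part 7: the numerical contradiction. -/

set_option linter.unusedSectionVars false
set_option linter.unusedSimpArgs false

namespace Cfsg.Agent.Lib.DihB

open Finset

/-- The numerical contradiction for odd `p`. -/
theorem numeric_contra {n p h1 h2 κ c Q : ℤ} (hp3 : 3 ≤ p) (hpp : Prime p)
    (e1 : h1 ^ 2 + h2 ^ 2 = κ + n * c) (e2 : 2 * (h1 * h2) = n * c) (e3 : h1 + h2 = κ + c)
    (e4 : 2 * Q = 2 * κ * h1 + (2 * c * h1 - c * h2) * h1)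
    (e5 : (h1 ^ 2 - p * h1) ^ 2 ≤ (n - p) * (Q - p * h1 ^ 2)) (b1 : 1 ≤ h1) (b1' : h1 ≤ n - 1)
    (b2 : 1 ≤ h2) (b2' : h2 ≤ n - 1) (e7 : p ∣ κ) : False := by
  have hk : κ = (h1 - h2) ^ 2 := by linear_combination -e1 + e2
  have hk0 : κ ≠ 0 := by
    intro h0
    rw [h0] at hk
    have h12 : h1 = h2 := by
      have := pow_eq_zero_iff (two_ne_zero) |>.1 hk.symm
      linarith
    subst h12
    have h4 : c = 2 * h1 := by linarith
    subst h4
    have h5 : 2 * (h1 * (n - h1)) = 0 := by linear_combination -e2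
    have h6 : h1 * (n - h1) = 0 := by linarith
    rcases mul_eq_zero.1 h6 with h | h <;> omega
  -- `s`
  have hs : p ≤ |h1 - h2| := by
    rw [hk] at e7
    have h5 := hpp.dvd_of_dvd_pow e7
    have h6 : h1 - h2 ≠ 0 := by
      intro h; apply hk0; rw [hk, h]; norm_num
    exact Int.le_of_dvd (abs_pos.2 h6) ((dvd_abs _ _).2 h5)
  -- inequality
  have hn0 : 0 < n := by linarith
  have hQ : n * Q = n * κ * h1 + h1 ^ 2 * (h1 ^ 2 - κ) := by
    have h7 : 2 * (n * Q) = 2 * (n * κ * h1 + h1 ^ 2 * (h1 ^ 2 - κ)) := by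
      linear_combination n * e4 + (-2 * h1 ^ 2 + h1 * h2) * e2 + 2 * h1 ^ 2 * hk
    linarith
  have hA : p * h1 * (n - h1) ^ 2 * h1 ≤ κ * (n - h1) * (n - p) * h1 := by
    have h8 := mul_le_mul_of_nonneg_left e5 hn0.le
    have h9 : κ * (n - h1) * (n - p) * h1 - p * h1 * (n - h1) ^ 2 * h1 =
        n * ((n - p) * (Q - p * h1 ^ 2)) - n * (h1 ^ 2 - p * h1) ^ 2 := by
      linear_combination (-(n - p)) * hQ
    linarith
  have hh1 : 0 < h1 := by linarith
  have hnh : 0 < n - h1 := by linarith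
  have hB : p * h1 * (n - h1) ≤ κ * (n - p) := by
    have h9 : (p * h1 * (n - h1)) * ((n - h1) * h1) ≤ (κ * (n - p)) * ((n - h1) * h1) := by
      have e1 : (p * h1 * (n - h1)) * ((n - h1) * h1) = p * h1 * (n - h1) ^ 2 * h1 := by ring
      have e2 : (κ * (n - p)) * ((n - h1) * h1) = κ * (n - h1) * (n - p) * h1 := by ring
      rw [e1, e2]; exact hA
    exact le_of_mul_le_mul_right h9 (mul_pos hnh hh1)
  have hC : 2 * (h1 * (n - h1)) = κ * (n - 1) + (h1 - h2) * (n - h1 - h2) := by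
    have e3' : n * (h1 + h2 - κ) = 2 * (h1 * h2) := by linear_combination n * e3 - e2
    linear_combination e3' * 1 + hk * 1
  have hD : p * ((h1 - h2) * (n - h1 - h2)) ≤ -(κ * ((p - 2) * n + p)) := by
    have : p * ((h1 - h2) * (n - h1 - h2)) = 2 * (p * h1 * (n - h1)) - p * (κ * (n - 1)) := by
      linear_combination (-p) * hC
    rw [this]
    linarith
  -- bound
  have hE : -(|h1 - h2| * n) ≤ (h1 - h2) * (n - h1 - h2) := by
    have h10 : |(h1 - h2) * (n - h1 - h2)| ≤ |h1 - h2| * n := by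
      rw [abs_mul]
      apply mul_le_mul_of_nonneg_left _ (abs_nonneg _)
      rw [abs_le]
      constructor <;> linarith
    exact (abs_le.1 h10).1
  have hks : κ = |h1 - h2| ^ 2 := by rw [hk, sq_abs]
  generalize |h1 - h2| = s at hs hE hks
  have hs0 : 0 < s := by linarith
  have hp0 : 0 < p := by linarith
  have hF : s * ((p - 2) * n + p) ≤ p * n := by
    have h11 : (s * ((p - 2) * n + p)) * s ≤ (p * n) * s := by
      have h12 := mul_le_mul_of_nonneg_left hE hp0.le
      have h13 : (s * ((p - 2) * n + p)) * s = κ * ((p - 2) * n + p) := by rw [hks]; ring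
      rw [h13]
      have h14 : (p * n) * s = - (p * -(s * n)) := by ring
      rw [h14]
      linarith
    exact le_of_mul_le_mul_right h11 hs0
  have hnn : 0 ≤ (p - 3) * n := mul_nonneg (by linarith) hn0.le
  have hG : p * ((p - 2) * n + p) ≤ p * n := by
    have h15 : 0 ≤ (p - 2) * n + p := by linarith
    exact le_trans (mul_le_mul_of_nonneg_right hs h15) hF
  have hH := le_of_mul_le_mul_left hG hp0
  linarith

end Cfsg.Agent.Lib.DihB
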