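import Cfsg.Agent.Lib.DihB7

/-! Dihedral groups are B-groups, part 8: the symmetric difference set. -/

set_option linter.unusedSectionVars false
set_option linter.unusedSimpArgs false

namespace Cfsg.Agent.Lib.DihB

open Finset

section aug

variable {n : ℕ} [NeZero n]

/-- augmentation -/
noncomputable def aug (a : AA n) : ℤ := ∑ i, a.coeff i

theorem aug_add (a b : AA n) : aug (a + b) = aug a + aug b := by
  simp only [aug, AddMonoidAlgebra.coeff_add, Finsupp.add_apply, sum_add_distrib]

theorem aug_mul (a b : AA n) : aug (a * b) = aug a * aug b := by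
  simp only [aug, coeff_mulA]
  rw [sum_comm, sum_mul_sum]
  refine sum_congr rfl fun i _ => ?_
  exact (Equiv.sum_comp (Equiv.subRight i) (fun k => a.coeff i * b.coeff k))

theorem aug_intCast (c : ℤ) : aug (c : AA n) = c := by
  simp only [aug, coeff_intCast]
  rw [sum_ite_eq' univ 0 (fun _ => c), if_pos (mem_univ _)]

/-- the all-one element -/
noncomputable def JJ : AA n := mk fun _ => 1

theorem aug_JJ : aug (JJ : AA n) = n := by
  simp [aug, JJ, ZMod.card]

theorem aug_mk (f : ZMod n → ℤ) : aug (mk f) = ∑ i, f i := by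
  simp [aug]

theorem mul_JJ (a : AA n) : a * JJ = (aug a : AA n) * JJ := by
  apply extA
  intro k
  rw [coeff_mulA, coeff_intMul, JJ]
  simp only [coeff_mk, mul_one]
  rfl

end aug

section diff

variable {n : ℕ} [NeZero n]

theorem conv_one_right (f : DihedralGroup n → ℤ) : conv f (fun _ => 1) = (∑ d, f d) • (fun _ => 1) := by
  funext d
  simp [conv]

theorem conv_one_left (f : DihedralGroup n → ℤ) : conv (fun _ => 1) f = (∑ d, f d) • (fun _ => 1) := by
  funext d
  simp only [conv, one_mul, Pi.smul_apply, smul_eq_mul, mul_one]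
  exact Equiv.sum_comp ((Equiv.inv _).trans (Equiv.mulRight d)) f

theorem TM_lin (κ c : ℤ) : TM (κ • delta + c • (fun _ => (1 : ℤ)) : DihedralGroup n → ℤ) 0 0 =
    (κ : AA n) + (c : AA n) * JJ ∧
    TM (κ • delta + c • (fun _ => (1 : ℤ)) : DihedralGroup n → ℤ) 1 0 = (c : AA n) * JJ := by
  constructor
  · apply extA
    intro i
    simp [TM, JJ, coeff_intMul, coeff_intCast, SR.delta_r, AddMonoidAlgebra.coeff_add]
  · apply extA
    intro i
    simp [TM, JJ, coeff_intMul, SR.delta_sr]

/-- The two equations. -/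
theorem two_eqs {H : DihedralGroup n → ℤ} (hS : Sy H) {κ c : ℤ}
    (hc : conv H H = κ • delta + c • (fun _ => 1)) :
    mk (fun i => H (.r i)) * mk (fun i => H (.r i)) + mk (fun i => H (.sr (-i))) * mk (fun i => H (.sr i)) =
      (κ : AA n) + (c : AA n) * JJ ∧
    2 * (mk (fun i => H (.r i)) * mk (fun i => H (.sr i))) = (c : AA n) * JJ := by
  have h := TM_conv H H
  rw [hc, TM_sym hS] at h
  constructor
  · rw [← (TM_lin κ c).1, h]
    simp [Matrix.mul_apply, Fin.sum_univ_two]
  · rw [← (TM_lin κ c).2, h]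
    simp only [Matrix.mul_apply, Fin.sum_univ_two, Fin.isValue, Matrix.of_apply,
      Matrix.cons_val', Matrix.cons_val_zero, Matrix.cons_val_one, Matrix.cons_val_fin_one]
    ring

theorem cube_eq {H : DihedralGroup n → ℤ} (hS : Sy H) {κ c : ℤ}
    (hc : conv H H = κ • delta + c • (fun _ => 1)) :
    2 * (mk (fun i => H (.r i)) * (mk (fun i => H (.r i)) * mk (fun i => H (.r i)))) =
      ((2 * κ : ℤ) : AA n) * mk (fun i => H (.r i)) +
        ((2 * c * (∑ i, H (.r i)) - c * ∑ i, H (.sr i) : ℤ) : AA n) * JJ := by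
  obtain ⟨h1, h2⟩ := two_eqs hS hc
  have ha := mul_JJ (mk (fun i => H (.r i)) : AA n)
  have hv := mul_JJ (mk (fun i => H (.sr (-i))) : AA n)
  rw [aug_mk] at ha hv
  rw [show ∑ i, H (.sr (-i)) = ∑ i, H (.sr i) from Equiv.sum_comp (Equiv.neg _) (fun i => H (.sr i))] at hv
  push_cast at *
  generalize (mk fun i => H (.r i) : AA n) = a at *
  generalize (mk fun i => H (.sr i) : AA n) = v at *
  generalize (mk fun i => H (.sr (-i)) : AA n) = v' at *
  linear_combination 2 * a * h1 - v' * h2 + 2 * (c : AA n) * ha - (c : AA n) * hv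

end diff

namespace SR

variable {n : ℕ} [NeZero n] (S : SR n) {p : ℕ} [Fact p.Prime]

/-- the numerical consequences -/
theorem core (hpn : p ∣ n) {H : DihedralGroup n → ℤ} (hInv : S.Inv H) (h01 : ∀ d, H d = 0 ∨ H d = 1)
    (hRI : RI p H) {κ c : ℤ} (hc : conv H H = κ • delta + c • (fun _ => 1)) :
    (∑ i, H (.r i)) ^ 2 + (∑ i, H (.sr i)) ^ 2 = κ + n * c ∧
    2 * ((∑ i, H (.r i)) * (∑ i, H (.sr i))) = n * c ∧
    (∑ i, H (.r i)) + (∑ i, H (.sr i)) = κ + c ∧
    ∃ Q : ℤ, 2 * Q = 2 * κ * (∑ i, H (.r i)) +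
        (2 * c * (∑ i, H (.r i)) - c * (∑ i, H (.sr i))) * (∑ i, H (.r i)) ∧
      ((∑ i, H (.r i)) ^ 2 - p * (∑ i, H (.r i))) ^ 2 ≤ (n - p) * (Q - p * (∑ i, H (.r i)) ^ 2) := by
  classical
  have hS : Sy H := S.sy hInv
  obtain ⟨e1, e2⟩ := two_eqs hS hc
  have hneg : ∑ i, H (.sr (-i)) = ∑ i, H (.sr i) := Equiv.sum_comp (Equiv.neg _) (fun i => H (.sr i))
  have hsq : ∀ d, H d * H d = H d := by
    intro d
    rcases h01 d with h | h <;> rw [h] <;> norm_num
  refine ⟨?_, ?_, ?_, ?_⟩
  · have := congrArg aug e1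
    rw [aug_add, aug_mul, aug_mul, aug_add, aug_mul, aug_intCast, aug_intCast, aug_JJ, aug_mk, aug_mk, aug_mk,
      hneg] at this
    linarith
  · have := congrArg aug e2
    rw [show (2 : AA n) = ((2 : ℤ) : AA n) by norm_cast, aug_mul, aug_mul, aug_mul, aug_intCast, aug_intCast,
      aug_JJ, aug_mk, aug_mk] at this
    linarith
  · have := congrArg (fun x : AA n => x.coeff 0) e1
    simp only [AddMonoidAlgebra.coeff_add, Finsupp.add_apply, coeff_mulA, coeff_mk, coeff_intCast, JJ,
      if_true, zero_sub, hS _, coeff_intMul, hsq] at this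
    have h1 : ∑ x : ZMod n, (if x = 0 then c else 0) * 1 = c := by
      simp only [mul_one]
      rw [sum_ite_eq' univ 0 (fun _ => c), if_pos (mem_univ _)]
    linarith
  · have e3 := cube_eq hS hc
    set a : AA n := DihB.mk (fun i : ZMod n => H (.r i)) with ha
    set w : ZMod n → ℤ := fun k => (a * a).coeff k with hw
    have hwk : ∀ k, w k = ∑ i : ZMod n, H (.r i) * H (.r (k - i)) := by
      intro k
      simp only [hw, ha, coeff_mulA, coeff_mk]
    have hw1 : ∀ k, p • k = 0 → w k = ∑ i, H (.r i) := by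
      intro k hk
      rw [hwk]
      refine sum_congr rfl fun i _ => ?_
      have : H (.r (k - i)) = H (.r i) := by
        rw [show k - i = -i + k by ring, hRI _ _ hk, hS]
      rw [this, hsq]
    have hwsym : ∀ k, w (-k) = w k := by
      intro k
      rw [hwk, hwk, ← Equiv.sum_comp (Equiv.neg _)]
      refine sum_congr rfl fun i _ => ?_
      simp only [Equiv.neg_apply]
      rw [hS i, show -k - -i = -(k - i) by ring, hS]
    have hwsum : ∑ k, w k = (∑ i, H (.r i)) ^ 2 := by
      have := aug_mul a a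
      rw [ha, aug_mk, ← ha] at this
      rw [sq, ← this]
      rfl
    refine ⟨∑ k, w k ^ 2, ?_, ?_⟩
    · -- coefficient 0 of a⁴
      have e4 := congrArg (fun x : AA n => (a * x).coeff 0) e3
      have l1 : (a * (2 * (a * (a * a)))).coeff 0 = 2 * ∑ k, w k ^ 2 := by
        rw [show a * (2 * (a * (a * a))) = ((2 : ℤ) : AA n) * ((a * a) * (a * a)) by push_cast; ring,
          coeff_intMul, coeff_mulA]
        congr 1
        refine sum_congr rfl fun k _ => ?_
        rw [zero_sub, sq]
        congr 1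
        exact hwsym k
      have l2 : (a * (((2 * κ : ℤ) : AA n) * a +
          ((2 * c * (∑ i, H (.r i)) - c * ∑ i, H (.sr i) : ℤ) : AA n) * JJ)).coeff 0 =
          2 * κ * (∑ i, H (.r i)) + (2 * c * (∑ i, H (.r i)) - c * ∑ i, H (.sr i)) * (∑ i, H (.r i)) := by
        have hJ := mul_JJ a
        rw [show a * (((2 * κ : ℤ) : AA n) * a +
          ((2 * c * (∑ i, H (.r i)) - c * ∑ i, H (.sr i) : ℤ) : AA n) * JJ) =
          ((2 * κ : ℤ) : AA n) * (a * a) + ((2 * c * (∑ i, H (.r i)) - c * ∑ i, H (.sr i) : ℤ) : AA n) * (a * JJ) by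
            ring, hJ, AddMonoidAlgebra.coeff_add, Finsupp.add_apply, coeff_intMul, coeff_intMul, coeff_intMul]
        have h00 : (a * a).coeff 0 = ∑ i, H (.r i) := hw1 0 (smul_zero _)
        rw [h00, ha, aug_mk]
        simp [JJ]
      rw [l1, l2] at e4
      exact e4
    · -- Cauchy–Schwarz
      have hsplit : ∀ F : ZMod n → ℤ, ∑ k, F k = ∑ k ∈ univ.filter (fun k : ZMod n => p • k = 0), F k +
          ∑ k ∈ univ.filter (fun k : ZMod n => ¬ p • k = 0), F k := fun F => (sum_filter_add_sum_filter_not _ _ _).symm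
      have hcard : ((univ.filter (fun k : ZMod n => ¬ p • k = 0)).card : ℤ) = n - p := by
        have h1 := card_filter_add_card_filter_not (s := (univ : Finset (ZMod n))) (fun k : ZMod n => p • k = 0)
        rw [card_P1 hpn, card_univ, ZMod.card] at h1
        have h2 : ((p : ℤ) + ((univ.filter (fun k : ZMod n => ¬ p • k = 0)).card : ℤ)) = n := by exact_mod_cast h1
        linarith
      have s1 : ∑ k ∈ univ.filter (fun k : ZMod n => ¬ p • k = 0), w k =
          (∑ i, H (.r i)) ^ 2 - p * (∑ i, H (.r i)) := by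
        have := hsplit w
        rw [hwsum, sum_congr rfl (g := fun _ => ∑ i, H (.r i)) (fun k hk => hw1 k (mem_filter.1 hk).2), sum_const,
          card_P1 hpn, nsmul_eq_mul] at this
        linarith
      have s2 : ∑ k ∈ univ.filter (fun k : ZMod n => ¬ p • k = 0), w k ^ 2 =
          ∑ k, w k ^ 2 - p * (∑ i, H (.r i)) ^ 2 := by
        have := hsplit (fun k => w k ^ 2)
        rw [sum_congr (s₁ := univ.filter (fun k : ZMod n => p • k = 0)) rfl
          (g := fun _ => (∑ i, H (.r i)) ^ 2) (fun k hk => by rw [hw1 k (mem_filter.1 hk).2]), sum_const,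
          card_P1 hpn, nsmul_eq_mul] at this
        linarith
      have := sq_sum_le_card_mul_sum_sq (s := univ.filter (fun k : ZMod n => ¬ p • k = 0)) (f := w)
      rw [s1, s2, hcard] at this
      exact this

end SR

end Cfsg.Agent.Lib.DihB
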