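import Cfsg.Agent.Lib.DihB8

/-! Dihedral groups are B-groups, part 9: odd primes. -/

set_option linter.unusedSectionVars false
set_option linter.unusedSimpArgs false

namespace Cfsg.Agent.Lib.DihB

open Finset

namespace SR

variable {n : ℕ} [NeZero n] (S : SR n) {p : ℕ} [Fact p.Prime] {t0 : ZMod n}

/-- the difference set -/
noncomputable def HH (t0 : ZMod n) : DihedralGroup n → ℤ := delta + S.ind (.r t0)

theorem HH_inv : S.Inv (S.HH t0) := S.inv_add S.inv_delta (S.inv_ind _)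

theorem not_rel_one (ht00 : t0 ≠ 0) {x : DihedralGroup n} (hx : S.rel (.r t0) x) : x ≠ 1 := by
  rintro rfl
  exact ht00 (r_eq_one.1 (S.one _ (S.eqv.symm hx)))

theorem HH_01 (ht00 : t0 ≠ 0) (d : DihedralGroup n) : S.HH t0 d = 0 ∨ S.HH t0 d = 1 := by
  simp only [HH, Pi.add_apply]
  by_cases h1 : d = 1
  · right
    subst h1
    rw [S.ind_zero (fun h => S.not_rel_one ht00 h rfl)]
    simp [delta]
  · by_cases h2 : S.rel (.r t0) d
    · right
      rw [S.ind_pos h2]; simp [delta, h1]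
    · left
      rw [S.ind_zero h2]; simp [delta, h1]

theorem HH_one (ht00 : t0 ≠ 0) : S.HH t0 1 = 1 := by
  simp only [HH, Pi.add_apply]
  rw [S.ind_zero (fun h => S.not_rel_one ht00 h rfl)]
  simp [delta]

theorem HH_rel (ht00 : t0 ≠ 0) {d : DihedralGroup n} (h : S.rel (.r t0) d) : S.HH t0 d = 1 := by
  simp only [HH, Pi.add_apply]
  rw [S.ind_pos h]
  simp [delta, S.not_rel_one ht00 h]

theorem HH_nrel {d : DihedralGroup n} (hd : d ≠ 1) (h : ¬ S.rel (.r t0) d) : S.HH t0 d = 0 := by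
  simp only [HH, Pi.add_apply]
  rw [S.ind_zero h]
  simp [delta, hd]

theorem HH_P1 (hr : S.Rat') (ht0 : p • t0 = 0) (ht00 : t0 ≠ 0) {i : ZMod n} (hi : p • i = 0) :
    S.HH t0 (.r i) = 1 := by
  by_cases h : i = 0
  · subst h
    rw [← DihedralGroup.one_def]
    exact S.HH_one ht00
  · exact S.HH_rel ht00 (S.rel_t0 hr ht0 ht00 hi h)

theorem HH_RI (hr : S.Rat') (hP : S.P1 p) (ht0 : p • t0 = 0) (ht00 : t0 ≠ 0) : RI p (S.HH t0) := by
  intro i t ht
  by_cases hi : p • i = 0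
  · rw [S.HH_P1 hr ht0 ht00 hi, S.HH_P1 hr ht0 ht00 (by rw [smul_add, hi, ht, add_zero])]
  · exact (S.HH_inv _ _ (hP i t ht hi)).symm

theorem HH_sq (hr : S.Rat') (hP : S.P1 p) (ht0 : p • t0 = 0) (ht00 : t0 ≠ 0) :
    ∃ κ c : ℤ, conv (S.HH t0) (S.HH t0) = κ • delta + c • (fun _ => 1) :=
  S.lemmaL4 hr hP ht0 ht00 S.HH_inv S.HH_inv (S.HH_RI hr hP ht0 ht00) (S.HH_RI hr hP ht0 ht00)

theorem cpow_even {H : DihedralGroup n → ℤ} {κ c : ℤ} (hc : conv H H = κ • delta + c • (fun _ => 1)) (m : ℕ) :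
    ∃ c' : ℤ, cpow H (2 * m) = κ ^ m • delta + c' • (fun _ => 1) := by
  induction m with
  | zero => exact ⟨0, by simp [cpow]⟩
  | succ m ih =>
    obtain ⟨c', hc'⟩ := ih
    refine ⟨κ * c' + c * (∑ d, (κ ^ m • delta + c' • (fun _ => 1) : DihedralGroup n → ℤ) d), ?_⟩
    rw [show 2 * (m + 1) = 2 * m + 1 + 1 by ring, cpow, cpow, ← conv_assoc, hc, hc', conv_add_left,
      conv_smul_left, conv_smul_left, conv_delta_left, conv_one_left]
    funext d
    simp only [Pi.add_apply, Pi.smul_apply, smul_eq_mul]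
    ring

theorem p_dvd_kappa (hn2 : 2 ≤ n) (hp2 : p ≠ 2) (hpn : p ∣ n) {H : DihedralGroup n → ℤ} (hInv : S.Inv H)
    (hRI : RI p H) {κ c : ℤ} (hc : conv H H = κ • delta + c • (fun _ => 1)) : (p : ℤ) ∣ κ := by
  classical
  have hp := (Fact.out : p.Prime)
  have h1 : ∀ k : ZMod n, (p : ℤ) ∣ cpow H p (.r k) := by
    intro k
    have hmod := cpow_mod (p := p) hp2 (S.sy hInv) 1 k
    simp only [pow_one] at hmod
    have h2 : (p : ℤ) ∣ ∑ j ∈ univ.filter (fun j : ZMod n => p • j = k), H (.r j) := by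
      by_cases hex : ∃ j : ZMod n, p • j = k
      · obtain ⟨k, rfl⟩ := hex
        have hfib : univ.filter (fun j : ZMod n => p • j = p • k) =
            (univ.filter (fun a : ZMod n => p • a = 0)).image (fun a => k + a) := by
          ext x
          rw [mem_filter, mem_image]
          constructor
          · rintro ⟨_, hx⟩
            refine ⟨x - k, ?_, by ring⟩
            rw [mem_filter]
            exact ⟨mem_univ _, by rw [smul_sub, hx, sub_self]⟩
          · rintro ⟨b, hb, rfl⟩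
            rw [mem_filter] at hb
            exact ⟨mem_univ _, by rw [smul_add, hb.2, add_zero]⟩
        rw [hfib, sum_image (fun x _ y _ h => add_left_cancel h), sum_congr rfl (g := fun _ => H (.r k)), sum_const,
          card_P1 hpn, nsmul_eq_mul]
        · exact dvd_mul_right _ _
        · intro b hb
          rw [mem_filter] at hb
          exact hRI _ _ hb.2
      · rw [sum_eq_zero]
        · exact dvd_zero _
        · intro j hj
          rw [mem_filter] at hj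
          exact absurd ⟨j, hj.2⟩ hex
    have := dvd_add hmod h2
    rwa [sub_add_cancel] at this
  have h2 : ∀ d, (p : ℤ) ∣ cpow H p d := S.det hn2 (S.inv_cpow hInv p) h1
  have h3 : ∀ d, (p : ℤ) ∣ cpow H (p + 1) d := by
    intro d
    rw [cpow, conv]
    exact dvd_sum fun z _ => Dvd.dvd.mul_left (h2 _) _
  obtain ⟨m, hm⟩ := hp.odd_of_ne_two hp2
  obtain ⟨c', hc'⟩ := cpow_even hc (m + 1)
  have h4 : p + 1 = 2 * (m + 1) := by omega
  rw [h4, hc'] at h3
  have h5 := h3 1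
  have h6 := h3 (.sr 0)
  simp only [Pi.add_apply, Pi.smul_apply, smul_eq_mul, mul_one, delta, if_true, if_neg (sr_ne_one (0 : ZMod n)),
    mul_zero, zero_add] at h5 h6
  have h7 := dvd_sub h5 h6
  rw [add_sub_cancel_right] at h7
  exact (Nat.prime_iff_prime_int.1 hp).dvd_of_dvd_pow h7

/-- A rational primitive Schur ring is trivial if `n` has an odd prime divisor. -/
theorem odd_triv (hn2 : 2 ≤ n) (hp2 : p ≠ 2) {a n' : ℕ} (hn : n = p ^ a * n') (ha : 1 ≤ a)
    (hn' : ¬ p ∣ n') (hr : S.Rat') {x y : DihedralGroup n} (hx : x ≠ 1) (hy : y ≠ 1) : S.rel x y := by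
  have hp := (Fact.out : p.Prime)
  have hpn : p ∣ n := by rw [hn]; exact Dvd.dvd.mul_right (dvd_pow_self p (by omega)) _
  obtain ⟨t0, ht0, ht00⟩ := exists_g (n := n) hpn
  suffices h : ∀ d, d ≠ 1 → S.rel (.r t0) d from S.eqv.trans (S.eqv.symm (h x hx)) (h y hy)
  intro d hd
  by_contra hcon
  have hP := S.P1_odd hn2 hp2 hn ha hn' hr
  obtain ⟨κ, c, hc⟩ := S.HH_sq hr hP ht0 ht00
  have hRI := S.HH_RI hr hP ht0 ht00
  obtain ⟨e1, e2, e3, Q, e4, e5⟩ := S.core hpn S.HH_inv (S.HH_01 ht00) hRI hc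
  have e7 := S.p_dvd_kappa hn2 hp2 hpn S.HH_inv hRI hc
  have hnn : ∀ d, 0 ≤ S.HH t0 d := by
    intro d
    rcases S.HH_01 ht00 d with h | h <;> rw [h]
    norm_num
  have hle : ∀ d, S.HH t0 d ≤ 1 := by
    intro d
    rcases S.HH_01 ht00 d with h | h <;> rw [h]
    norm_num
  have hlt : ∀ (F : ZMod n → ℤ), (∀ i, F i ≤ 1) → (∃ i, F i = 0) → ∑ i, F i ≤ n - 1 := by
    intro F hF ⟨i, hi⟩
    have : ∑ i, F i < ∑ _i : ZMod n, (1 : ℤ) := sum_lt_sum (fun i _ => hF i) ⟨i, mem_univ _, by rw [hi]; norm_num⟩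
    rw [sum_const, card_univ, ZMod.card] at this
    simp only [nsmul_eq_mul, mul_one] at this
    omega
  have b1 : 1 ≤ ∑ i, S.HH t0 (.r i) := by
    have := single_le_sum (f := fun i => S.HH t0 (.r i)) (fun i _ => hnn _) (mem_univ (0 : ZMod n))
    rwa [← DihedralGroup.one_def, S.HH_one ht00] at this
  have b1' : ∑ i, S.HH t0 (.r i) ≤ n - 1 := by
    apply hlt _ (fun i => hle _)
    obtain ⟨i, hi, hi2⟩ := S.exists_rot hn2 hd
    refine ⟨i, S.HH_nrel (fun h => hi (r_eq_one.1 h)) (fun h => hcon (S.eqv.trans h (S.eqv.symm hi2)))⟩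
  have b2 : 1 ≤ ∑ i, S.HH t0 (.sr i) := by
    obtain ⟨j, hj⟩ := S.exists_refl (x := .r t0) (fun h => ht00 (r_eq_one.1 h))
    have := single_le_sum (f := fun i => S.HH t0 (.sr i)) (fun i _ => hnn _) (mem_univ j)
    rwa [S.HH_rel ht00 hj] at this
  have b2' : ∑ i, S.HH t0 (.sr i) ≤ n - 1 := by
    apply hlt _ (fun i => hle _)
    obtain ⟨i, hi⟩ := S.exists_refl hd
    exact ⟨i, S.HH_nrel (sr_ne_one i) (fun h => hcon (S.eqv.trans h (S.eqv.symm hi)))⟩
  have hp3 : (3 : ℤ) ≤ p := by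
    have := hp.two_le
    have : 3 ≤ p := by omega
    exact_mod_cast this
  exact numeric_contra hp3 (Nat.prime_iff_prime_int.1 hp) e1 e2 e3 e4 e5 b1 b1' b2 b2' e7

end SR

end Cfsg.Agent.Lib.DihB
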