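import Mathlib
import Cfsg.Agent.Lib.DkSub

/-!
# Maximal subgroups of `PSL_2(q)`: common part (helper98)
-/

set_option autoImplicit false
set_option linter.unusedSectionVars false

namespace Cfsg.Agent.Lib.DkMax

open Cfsg.Agent.Lib Cfsg.Agent.Lib.MobCount MulAction Matrix Cfsg.Agent.Lib.ClProjLine Cfsg.Agent.Lib.DkTorus Cfsg.Agent.Lib.DkSub
open scoped LinearAlgebra.Projectivization MatrixGroups

variable {F : Type*} [Field F] [Fintype F]

/-- a maximal subgroup contained in a proper subgroup is equal to it -/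
theorem eq_of_coatom {G : Type*} [Group G] {M N : Subgroup G} (hM : IsCoatom M) (h : M ≤ N) (hN : N ≠ ⊤) : M = N := by
  rcases hM.le_iff.mp h with h1 | h1
  · exact absurd h1 hN
  · exact h1.symm

theorem ne_top_of_card {G : Type*} [Group G] {N : Subgroup G} (h : Nat.card N ≠ Nat.card G) : N ≠ ⊤ := by
  rintro rfl
  apply h
  exact Subgroup.card_top

theorem stab_case (M : Subgroup (P2 F)) (hM : IsCoatom M) (x : ℙ F (Fin 2 → F)) (h : M ≤ stabilizer (P2 F) x) :
    Nat.gcd 2 (Fintype.card F - 1) * Nat.card M = Fintype.card F * (Fintype.card F - 1) := by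
  have h1 := eq_of_coatom hM h (by
    intro e
    have := index_stab (F := F) rfl x
    rw [e, Subgroup.index_top] at this
    have h2 : 1 < Fintype.card F := Fintype.one_lt_card
    omega)
  rw [h1]
  exact card_stab rfl x

theorem torus_case (p : ℕ) [Fact p.Prime] [CharP F p] (h4 : 4 ≤ Fintype.card F) (M : Subgroup (P2 F)) (hM : IsCoatom M)
    (c : P2 F) (hc1 : c ≠ 1) (hcp : ¬ p ∣ orderOf c) (h : ∀ g ∈ M, g * c * g⁻¹ ∈ Subgroup.zpowers c) :
    ∃ k : ℕ, (Nat.gcd 2 (Fintype.card F - 1) * k = Fintype.card F - 1 ∨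
      Nat.gcd 2 (Fintype.card F - 1) * k = Fintype.card F + 1) ∧ Nat.card M = 2 * k ∧
      Nonempty (M ≃* DihedralGroup k) := by
  obtain ⟨k, N, hk, hcard, hD, hN⟩ := psl_torus p h4 c hc1 hcp
  have h1 : M ≤ N := fun g hg => hN g (h g hg)
  have h2 : N ≠ ⊤ := by
    apply ne_top_of_card
    rw [hcard]
    have h3 := card_P2 (F := F) rfl
    intro e
    rw [← e] at h3
    set d := Nat.gcd 2 (Fintype.card F - 1) with hd
    set q := Fintype.card F with hq
    have h5 : d * (2 * k) = 2 * (d * k) := by ring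
    rw [h5] at h3
    obtain ⟨n, hn⟩ : ∃ n, q = n + 4 := ⟨q - 4, by omega⟩
    have h6 : q ^ 2 - 1 = (q - 1) * (q + 1) := by
      have : q ^ 2 = (q - 1) * (q + 1) + 1 := by
        rw [hn]
        have : n + 4 - 1 = n + 3 := by omega
        rw [this]; ring
      omega
    rw [h6] at h3
    have h7 : d * k ≤ q + 1 := by rcases hk with h | h <;> omega
    have h8 : 2 * (q + 1) < q * ((q - 1) * (q + 1)) := by
      have h9 : 4 * 3 ≤ q * (q - 1) := Nat.mul_le_mul h4 (by omega)
      calc 2 * (q + 1) < 12 * (q + 1) := by omega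
        _ ≤ (q * (q - 1)) * (q + 1) := Nat.mul_le_mul_right _ h9
        _ = q * ((q - 1) * (q + 1)) := by ring
    omega
  have h3 := eq_of_coatom hM h1 h2
  subst h3
  exact ⟨k, hk, hcard, hD⟩

/-- cyclic and dihedral maximal subgroups -/
theorem cyc_case (p : ℕ) [Fact p.Prime] [CharP F p] (h4 : 4 ≤ Fintype.card F) (M : Subgroup (P2 F)) (hM : IsCoatom M)
    (C : Subgroup (P2 F)) (hCM : C ≤ M) (hC : IsCyclic C) (hCp : ¬ p ∣ Nat.card C) (hcard : Nat.card M = Nat.card C ∨ Nat.card M = 2 * Nat.card C) :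
    Nat.gcd 2 (Fintype.card F - 1) * Nat.card M = Fintype.card F * (Fintype.card F - 1) ∨
    ∃ k : ℕ, (Nat.gcd 2 (Fintype.card F - 1) * k = Fintype.card F - 1 ∨
      Nat.gcd 2 (Fintype.card F - 1) * k = Fintype.card F + 1) ∧ Nat.card M = 2 * k ∧
      Nonempty (M ≃* DihedralGroup k) := by
  by_cases hCb : C = ⊥
  · -- |M| ≤ 2
    subst hCb
    rw [Subgroup.card_bot] at hcard
    -- M is generated by an element t with t^2 = 1
    by_cases hMb : M = ⊥
    · left
      obtain ⟨x⟩ : Nonempty (ℙ F (Fin 2 → F)) := ⟨e0 F⟩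
      exact stab_case M hM x (by rw [hMb]; exact bot_le)
    · have h2 : Nat.card M = 2 := by
        rcases hcard with h | h
        · exact absurd (Subgroup.card_eq_one.mp h) hMb
        · omega
      obtain ⟨t, htM, ht1⟩ := M.bot_or_exists_ne_one.resolve_left hMb
      haveI : Fact (Nat.Prime 2) := ⟨Nat.prime_two⟩
      have hto : orderOf t = 2 := by
        apply orderOf_eq_prime _ ht1
        have := pow_card_eq_one' (x := (⟨t, htM⟩ : M))
        rw [h2] at this
        exact congrArg Subtype.val this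
      have hz : Subgroup.zpowers t = M := by
        apply Subgroup.eq_of_le_of_card_ge
        · rw [Subgroup.zpowers_le]; exact htM
        · rw [h2, Nat.card_zpowers, hto]
      by_cases hp2 : p = 2
      · left
        subst hp2
        have ht2 : t ^ 2 = 1 := by
          have := pow_orderOf_eq_one t
          rwa [hto] at this
        obtain ⟨x, hx⟩ := exists_fix_of_pow (F := F) 2 (tP F t) (by rw [← map_pow, ht2, map_one])
        refine stab_case M hM x ?_
        rw [← hz, Subgroup.zpowers_le, mem_stabilizer_iff, ← toPGL_smul]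
        exact hx
      · right
        refine torus_case p h4 M hM t ht1 ?_ ?_
        · rw [hto]
          intro h
          exact hp2 ((Nat.prime_dvd_prime_iff_eq Fact.out Nat.prime_two).mp h)
        · intro g hg
          rw [← hz] at hg
          obtain ⟨n, rfl⟩ := hg
          refine ⟨1, ?_⟩
          change t ^ (1 : ℤ) = t ^ n * t * (t ^ n)⁻¹
          rw [_root_.zpow_one, (Commute.refl t).zpow_left n |>.eq, mul_inv_cancel_right]
  · right
    obtain ⟨c, hc⟩ := hC.exists_generator
    have hcC : Subgroup.zpowers (c : P2 F) = C := by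
      apply le_antisymm
      · rw [Subgroup.zpowers_le]; exact c.2
      · intro x hx
        obtain ⟨n, hn⟩ := hc ⟨x, hx⟩
        exact ⟨n, congrArg Subtype.val hn⟩
    refine torus_case p h4 M hM c ?_ ?_ ?_
    · intro e
      apply hCb
      rw [← hcC, e, Subgroup.zpowers_one_eq_bot]
    · rw [← Nat.card_zpowers, hcC]; exact hCp
    · intro g hg
      rw [hcC]
      have hidx : (C.subgroupOf M).index ≤ 2 := by
        have h2 := Subgroup.card_mul_index (C.subgroupOf M)
        rw [Nat.card_congr (Subgroup.subgroupOfEquivOfLe hCM).toEquiv] at h2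
        have h3 : 0 < Nat.card C := Nat.card_pos
        by_contra hlt
        push Not at hlt
        have h5 : Nat.card C * 3 ≤ Nat.card C * (C.subgroupOf M).index := Nat.mul_le_mul_left _ hlt
        rcases hcard with h | h <;> omega
      have hn : (C.subgroupOf M).Normal := by
        have h0 : (C.subgroupOf M).index ≠ 0 := Subgroup.FiniteIndex.index_ne_zero
        have h5 : (C.subgroupOf M).index = 1 ∨ (C.subgroupOf M).index = 2 := by omega
        rcases h5 with h | h
        · rw [Subgroup.index_eq_one] at h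
          rw [h]; infer_instance
        · exact Subgroup.normal_of_index_eq_two h
      have := hn.conj_mem ⟨c, hCM c.2⟩ c.2 ⟨g, hg⟩
      exact this

/-- comap of a conjugate -/
noncomputable def cm (g : PGL(Fin 2, F)) (R : Subgroup (PGL(Fin 2, F))) : Subgroup (P2 F) :=
  (R.comap (MulAut.conj g).toMonoidHom).comap (tP F)

theorem le_cm {M : Subgroup (P2 F)} {g : PGL(Fin 2, F)} {R : Subgroup (PGL(Fin 2, F))}
    (h : (M.map (tP F)).map (MulAut.conj g).toMonoidHom ≤ R) : M ≤ cm g R := by
  intro x hx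
  apply h
  exact ⟨_, ⟨x, hx, rfl⟩, rfl⟩

/-- `cm g R ≃ R ∩ L` -/
theorem cm_equiv (g : PGL(Fin 2, F)) (R : Subgroup (PGL(Fin 2, F))) :
    Nonempty (cm g R ≃* (R ⊓ LL F : Subgroup (PGL(Fin 2, F)))) := by
  obtain ⟨e⟩ := comap_equiv (R.comap (MulAut.conj g).toMonoidHom)
  refine ⟨e.trans ?_⟩
  have h1 : (R.comap (MulAut.conj g).toMonoidHom ⊓ LL F).map (MulAut.conj g).toMonoidHom = R ⊓ LL F := by
    ext x
    constructor
    · rintro ⟨y, ⟨hy1, hy2⟩, rfl⟩
      exact ⟨hy1, LL_normal.conj_mem y hy2 g⟩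
    · rintro ⟨h1, h2⟩
      refine ⟨g⁻¹ * x * g, ⟨?_, ?_⟩, ?_⟩
      · change g * (g⁻¹ * x * g) * g⁻¹ ∈ R
        have : g * (g⁻¹ * x * g) * g⁻¹ = x := by group
        rw [this]; exact h1
      · have := LL_normal.conj_mem x h2 g⁻¹
        rwa [inv_inv] at this
      · change g * (g⁻¹ * x * g) * g⁻¹ = x
        group
  exact (Subgroup.equivMapOfInjective _ _ (MulAut.conj g).injective).trans (MulEquiv.subgroupCongr h1)

theorem card_cm (g : PGL(Fin 2, F)) (R : Subgroup (PGL(Fin 2, F))) :
    Nat.card (cm g R) = Nat.card (R ⊓ LL F : Subgroup (PGL(Fin 2, F))) := by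
  obtain ⟨e⟩ := cm_equiv g R
  exact Nat.card_congr e.toEquiv

theorem psl_small (k : Subfield F) : ∃ (F₀ : Type) (_ : Field F₀) (_ : Fintype F₀), Fintype.card F₀ = Nat.card k ∧
    Nonempty ((pslMap k.subtype).range ≃* P2 F₀) := by
  obtain ⟨K, hK1, hK2, ⟨e⟩⟩ := exists_small k
  refine ⟨K, hK1, hK2, ?_, ?_⟩
  · rw [← Nat.card_eq_fintype_card]; exact Nat.card_congr e.toEquiv
  · have h1 := range_pslMap_comp k.subtype e
    exact ⟨(MulEquiv.subgroupCongr h1.symm).trans (MonoidHom.ofInjective (pslMap_injective _)).symm⟩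

theorem pgl_small (k : Subfield F) : ∃ (F₀ : Type) (_ : Field F₀) (_ : Fintype F₀), Fintype.card F₀ = Nat.card k ∧
    Nonempty ((Matrix.ProjGenLinGroup.map (n := Fin 2) k.subtype).range ≃* PGL(Fin 2, F₀)) := by
  obtain ⟨K, hK1, hK2, ⟨e⟩⟩ := exists_small k
  refine ⟨K, hK1, hK2, ?_, ?_⟩
  · rw [← Nat.card_eq_fintype_card]; exact Nat.card_congr e.toEquiv
  · have h1 := range_map_comp k.subtype e
    exact ⟨(MulEquiv.subgroupCongr h1.symm).trans (MonoidHom.ofInjective (map_PGL_injective _)).symm⟩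

theorem card_pgl_sub (k : Subfield F) : Nat.card (Matrix.ProjGenLinGroup.map (n := Fin 2) k.subtype).range =
    Nat.card k * (Nat.card k ^ 2 - 1) := by
  classical
  have : Fintype k := Fintype.ofFinite k
  rw [card_pglRange, card_G2 rfl, Nat.card_eq_fintype_card]

theorem card_psl_sub (k : Subfield F) : Nat.gcd 2 (Nat.card k - 1) * Nat.card (pslMap k.subtype).range =
    Nat.card k * (Nat.card k ^ 2 - 1) := by
  classical
  have : Fintype k := Fintype.ofFinite k
  rw [card_pslRange, Nat.card_eq_fintype_card, card_P2 rfl]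

end Cfsg.Agent.Lib.DkMax
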