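import Mathlib
import Cfsg.Agent.Lib.DkMax

/-!
# `A_4`, `S_4`, `A_5` in `PSL_2(q)`: overgroups (helper98)
-/

set_option autoImplicit false
set_option linter.unusedSectionVars false

namespace Cfsg.Agent.Lib.DkSmall

open Cfsg.Agent.Lib Cfsg.Agent.Lib.MobCount MulAction Matrix Cfsg.Agent.Lib.ClProjLine Cfsg.Agent.Lib.DkTorus
  Cfsg.Agent.Lib.DkSub Cfsg.Agent.Lib.DkMax
open scoped LinearAlgebra.Projectivization MatrixGroups

/-- two noncommuting elements which are not involutions -/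
def Bad (H : Type*) [Group H] : Prop := ∃ a b : H, a * a ≠ 1 ∧ b * b ≠ 1 ∧ a * b ≠ b * a

theorem bad_A4 : Bad (alternatingGroup (Fin 4)) := by
  unfold Bad; decide +kernel

theorem bad_S4 : Bad (Equiv.Perm (Fin 4)) := by
  refine ⟨finRotate 4, Equiv.swap 0 1 * Equiv.swap 1 2, ?_⟩
  decide

theorem bad_A5 : Bad (alternatingGroup (Fin 5)) := by
  obtain ⟨a, b, h1, h2, h3⟩ : ∃ a b : Equiv.Perm (Fin 5), (a ∈ alternatingGroup (Fin 5) ∧ b ∈ alternatingGroup (Fin 5)) ∧
      (a * a ≠ 1 ∧ b * b ≠ 1) ∧ a * b ≠ b * a := by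
    refine ⟨Equiv.swap 0 1 * Equiv.swap 1 2, Equiv.swap 0 1 * Equiv.swap 1 3, ?_, ?_, ?_⟩
    · rw [Equiv.Perm.mem_alternatingGroup, Equiv.Perm.mem_alternatingGroup]; decide
    · decide
    · decide
  refine ⟨⟨a, h1.1⟩, ⟨b, h1.2⟩, ?_, ?_, ?_⟩
  · intro h; exact h2.1 (congrArg Subtype.val h)
  · intro h; exact h2.2 (congrArg Subtype.val h)
  · intro h; exact h3 (congrArg Subtype.val h)

theorem Bad.of_equiv {H K : Type*} [Group H] [Group K] (h : Bad H) (e : H ≃* K) : Bad K := by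
  obtain ⟨a, b, h1, h2, h3⟩ := h
  refine ⟨e a, e b, ?_, ?_, ?_⟩
  · intro h; apply h1; apply e.injective; rw [map_mul, h, map_one]
  · intro h; apply h2; apply e.injective; rw [map_mul, h, map_one]
  · intro h; apply h3; apply e.injective; rw [map_mul, h, map_mul]

/-- not in a dihedral group -/
theorem Bad.not_dihedral {G : Type*} [Group G] {H C M : Subgroup G} (h : Bad H) (hC : IsCyclic C) (hHM : H ≤ M)
    (ht : ∀ t ∈ M, t ∉ C → t * t = 1) : False := by
  obtain ⟨a, b, h1, h2, h3⟩ := h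
  have ha : (a : G) ∈ C := by
    by_contra hn
    exact h1 (Subtype.ext (ht a (hHM a.2) hn))
  have hb : (b : G) ∈ C := by
    by_contra hn
    exact h2 (Subtype.ext (ht b (hHM b.2) hn))
  have h5 : (⟨a, ha⟩ : C) * ⟨b, hb⟩ = ⟨b, hb⟩ * ⟨a, ha⟩ := hC.commGroup.mul_comm _ _
  have h6 : (a : G) * b = b * a := congrArg Subtype.val h5
  exact h3 (Subtype.ext h6)

variable {F : Type*} [Field F] [Fintype F]

/-- a `p'`-subgroup of a point stabilizer is cyclic -/
theorem stab_cyc (p : ℕ) [Fact p.Prime] [CharP F p] (H : Subgroup (PGL(Fin 2, F))) (x : ℙ F (Fin 2 → F))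
    (hx : ∀ g ∈ H, g • x = x) (hp : ¬ p ∣ Nat.card H) : IsCyclic H := by
  haveI := charP_ac (F := F) p
  obtain ⟨χ, h1, h2, h3⟩ := (mobLike_PGL (K := AlgebraicClosure F) p).chi (iota (algebraMap F (AlgebraicClosure F)) x)
  let j : H →* stabilizer (PGL(Fin 2, AlgebraicClosure F)) (iota (algebraMap F (AlgebraicClosure F)) x) :=
    { toFun := fun g => ⟨jj F g.1, by rw [mem_stabilizer_iff, jj, iota_smul, hx g.1 g.2]⟩
      map_one' := by apply Subtype.ext; simp
      map_mul' := by intro a b; apply Subtype.ext; simp }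
  apply isCyclic_of_injective_ringHom ((Units.coeHom (AlgebraicClosure F)).comp (χ.comp j))
  rw [injective_iff_map_eq_one]
  intro a ha
  have h4 : χ (j a) = 1 := by
    apply Units.ext
    exact ha
  have h5 := h2 _ h4
  have h6 : jj F ((a : PGL(Fin 2, F)) ^ p) = 1 := by
    have := congrArg Subtype.val h5
    rw [map_pow]
    exact this
  have h7 : (a : PGL(Fin 2, F)) ^ p = 1 := jj_inj (by rw [h6, map_one])
  have h8 : a ^ p = 1 := Subtype.ext h7
  have h9 : orderOf a ∣ Nat.card H := orderOf_dvd_natCard a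
  rcases (Nat.dvd_prime (Fact.out : p.Prime)).mp (orderOf_dvd_of_pow_eq_one h8) with h | h
  · exact orderOf_eq_one_iff.mp h
  · rw [h] at h9; exact absurd h9 hp

theorem Bad.not_cyclic {H : Type*} [Group H] (h : Bad H) (hC : IsCyclic H) : False := by
  obtain ⟨a, b, _, _, h3⟩ := h
  exact h3 (hC.commGroup.mul_comm a b)

theorem Bad.not_stab (p : ℕ) [Fact p.Prime] [CharP F p] {H : Subgroup (P2 F)} (h : Bad H) (x : ℙ F (Fin 2 → F))
    (hx : H ≤ stabilizer (P2 F) x) (hp : ¬ p ∣ Nat.card H) : False := by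
  have h1 : IsCyclic (H.map (tP F)) := by
    apply stab_cyc p _ x
    · rintro _ ⟨g, hg, rfl⟩
      rw [toPGL_smul]
      exact hx hg
    · rw [Subgroup.card_map_of_injective tP_inj]; exact hp
  exact h.not_cyclic ((Subgroup.equivMapOfInjective _ _ tP_inj).isCyclic.mpr h1)

/-- The possible proper overgroups of a `Bad` subgroup of order prime to `p`. -/
theorem over_bad (p : ℕ) [Fact p.Prime] [CharP F p] {H M : Subgroup (P2 F)} (h : Bad H) (hp : ¬ p ∣ Nat.card H)
    (hHM : H ≤ M) (hM : M ≠ ⊤) :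
    (¬ p ∣ Nat.card M ∧ Nat.card M = 12 ∧ Nonempty (M ≃* alternatingGroup (Fin 4))) ∨
    (¬ p ∣ Nat.card M ∧ Nat.card M = 24 ∧ Nonempty (M ≃* Equiv.Perm (Fin 4))) ∨
    ((¬ p ∣ Nat.card M ∨ p = 3) ∧ Nat.card M = 60 ∧ Nonempty (M ≃* alternatingGroup (Fin 5))) ∨
    (∃ (g : PGL(Fin 2, F)) (k : Subfield F) (m : ℕ), 2 ≤ m ∧ Nat.card k ^ m = Fintype.card F ∧
      ((M.map (tP F)).map (MulAut.conj g).toMonoidHom = (pslMap k.subtype).range ∨
      (M.map (tP F)).map (MulAut.conj g).toMonoidHom =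
        (Matrix.ProjGenLinGroup.map (n := Fin 2) k.subtype).range)) := by
  rcases psl_cases (F := F) rfl p M hM with ⟨h1, _, _⟩ | ⟨C, hCM, hC, _, hcard, ht, _, _⟩ | h' | h' | h' | ⟨_, x, hx⟩ | h'
  · exfalso
    refine h.not_dihedral (C := M) h1 hHM (fun t ht ht' => absurd ht ht')
  · exact absurd (h.not_dihedral hC hHM ht) id
  · left; exact h'
  · right; left; exact h'
  · right; right; left; exact h'
  · exact absurd (h.not_stab p x (hHM.trans hx) hp) id
  · right; right; right; exact h'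

theorem sub_of_prime {p : ℕ} (hp : p.Prime) (k : Subfield F) (m : ℕ) (hm : 2 ≤ m) (h : Nat.card k ^ m = p) : False := by
  rw [← h] at hp
  exact (Nat.Prime.not_prime_pow hm) hp

end Cfsg.Agent.Lib.DkSmall
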