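import Mathlib
import Cfsg.Agent.Lib.MobOct
import Cfsg.Agent.Lib.DkSmall

/-!
# Quaternion pairs in `M_2(F)`: Skolem-Noether, Klein four-groups of `PGL_2(q)` (helper98)
-/

set_option autoImplicit false
set_option linter.unusedSectionVars false

namespace Cfsg.Agent.Lib.DkQuat

open Cfsg.Agent.Lib Cfsg.Agent.Lib.MobCount Cfsg.Agent.Lib.MobOct MulAction Matrix Cfsg.Agent.Lib.ClProjLine
  Cfsg.Agent.Lib.DkTorus Cfsg.Agent.Lib.DkSub Cfsg.Agent.Lib.DkMax Cfsg.Agent.Lib.DkSmall
open scoped LinearAlgebra.Projectivization MatrixGroups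

section Quat

variable {F : Type*} [Field F] {I J I' J' : Matrix (Fin 2) (Fin 2) F}

theorem fund (A B : Matrix (Fin 2) (Fin 2) F) : A * B + B * A = Matrix.trace A • B + Matrix.trace B • A +
    (Matrix.trace (A * B) - Matrix.trace A * Matrix.trace B) • (1 : Matrix (Fin 2) (Fin 2) F) := by
  ext i j
  fin_cases i <;> fin_cases j <;>
    simp [Matrix.mul_apply, Fin.sum_univ_two, Matrix.trace] <;> ring

theorem quat_trI (h2 : (2 : F) ≠ 0) (h : Quat I J) : Matrix.trace I = 0 := by
  have h1 : J * I * J = I := by rw [h.ji, neg_mul, mul_assoc, h.jj, mul_neg_one, neg_neg]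
  have h3 : Matrix.trace (J * I * J) = - Matrix.trace I := by
    rw [mul_assoc, Matrix.trace_mul_comm, mul_assoc, h.jj, mul_neg_one, Matrix.trace_neg]
  rw [h1] at h3
  have h4 : 2 * Matrix.trace I = 0 := by linear_combination h3
  exact (mul_eq_zero.mp h4).resolve_left h2

theorem quat_symm (h : Quat I J) : Quat J I := ⟨h.jj, h.ii, by rw [h.ji, neg_neg]⟩

theorem quat_IK (h : Quat I J) : Quat I (I * J) := ⟨h.ii, h.KK, by rw [h.Ki, h.iK, neg_neg]⟩

theorem quat_trJ (h2 : (2 : F) ≠ 0) (h : Quat I J) : Matrix.trace J = 0 := quat_trI h2 (quat_symm h)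

theorem quat_trK (h2 : (2 : F) ≠ 0) (h : Quat I J) : Matrix.trace (I * J) = 0 := quat_trJ h2 (quat_IK h)

theorem quat_expand (h2 : (2 : F) ≠ 0) (h : Quat I J) (X : Matrix (Fin 2) (Fin 2) F) :
    (2 : F) • X = Matrix.trace X • (1 : Matrix (Fin 2) (Fin 2) F) - Matrix.trace (X * I) • I - Matrix.trace (X * J) • J -
      Matrix.trace (X * (I * J)) • (I * J) := by
  have tI := quat_trI h2 h
  have tJ := quat_trJ h2 h
  have tK := quat_trK h2 h
  have tJI : Matrix.trace (J * I) = 0 := by rw [h.ji, Matrix.trace_neg, tK, neg_zero]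
  set D := (2 : F) • X - (Matrix.trace X • (1 : Matrix (Fin 2) (Fin 2) F) - Matrix.trace (X * I) • I - Matrix.trace (X * J) • J -
      Matrix.trace (X * (I * J)) • (I * J)) with hD
  have t1 : Matrix.trace (1 : Matrix (Fin 2) (Fin 2) F) = 2 := by rw [Matrix.trace_one]; simp
  have tm1 : Matrix.trace (-1 : Matrix (Fin 2) (Fin 2) F) = -2 := by rw [Matrix.trace_neg, t1]
  have d1 : Matrix.trace D = 0 := by
    rw [hD]
    simp only [Matrix.trace_sub, Matrix.trace_smul, tI, tJ, tK, t1, smul_eq_mul]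
    ring
  have dI : Matrix.trace (D * I) = 0 := by
    rw [hD]
    simp only [sub_mul, smul_mul_assoc, one_mul, h.ii, h.Ki, Matrix.trace_sub, Matrix.trace_smul, tI, tJ, tJI, tm1, smul_eq_mul]
    ring
  have dJ : Matrix.trace (D * J) = 0 := by
    rw [hD]
    simp only [sub_mul, smul_mul_assoc, one_mul, h.jj, h.Kj, Matrix.trace_sub, Matrix.trace_smul, Matrix.trace_neg, tI, tJ, tK, tm1, smul_eq_mul]
    ring
  have aI : D * I = -(I * D) := by
    rw [eq_neg_iff_add_eq_zero, fund, d1, tI, dI]; simp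
  have aJ : D * J = -(J * D) := by
    rw [eq_neg_iff_add_eq_zero, fund, d1, tJ, dJ]; simp
  have dK : Matrix.trace (D * (I * J)) = 0 := by
    rw [hD]
    simp only [sub_mul, smul_mul_assoc, one_mul, h.KK, h.iK, h.jK, Matrix.trace_sub, Matrix.trace_smul, Matrix.trace_neg, tI, tJ, tK, tm1, smul_eq_mul]
    ring
  have aK : D * (I * J) = -(I * J * D) := by
    rw [eq_neg_iff_add_eq_zero, fund, d1, tK, dK]; simp
  have cK : D * (I * J) = I * J * D := by
    rw [← mul_assoc, aI, neg_mul, mul_assoc, aJ, mul_neg, neg_neg, mul_assoc]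
  have h3 : (2 : F) • (I * J * D) = 0 := by
    rw [two_smul]
    nth_rw 1 [← cK]
    rw [aK]; abel
  have h4 : I * J * D = 0 := (smul_eq_zero.mp h3).resolve_left h2
  have h5 : D = 0 := by
    have : I * J * (I * J * D) = 0 := by rw [h4, mul_zero]
    rw [← mul_assoc, h.KK, neg_one_mul] at this
    exact neg_eq_zero.mp this
  exact sub_eq_zero.mp h5

theorem quat_comm (h2 : (2 : F) ≠ 0) (h : Quat I J) (B : Matrix (Fin 2) (Fin 2) F) (hI : B * I = I * B)
    (hJ : B * J = J * B) : ∃ c : F, B = c • (1 : Matrix (Fin 2) (Fin 2) F) := by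
  have key : ∀ (U V : Matrix (Fin 2) (Fin 2) F), Quat U V → B * V = V * B → Matrix.trace (B * U) = 0 := by
    intro U V hUV hV
    have h1 : V * (B * U) * V = B * U := by
      calc V * (B * U) * V = (V * B) * U * V := by noncomm_ring
        _ = B * (V * U) * V := by rw [← hV]; noncomm_ring
        _ = B * U := by rw [hUV.ji, mul_neg, neg_mul, mul_assoc, mul_assoc, hUV.jj, mul_neg_one, mul_neg, neg_neg]
    have h3 : Matrix.trace (V * (B * U) * V) = - Matrix.trace (B * U) := by
      rw [mul_assoc, Matrix.trace_mul_comm, mul_assoc, hUV.jj, mul_neg_one, Matrix.trace_neg]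
    rw [h1] at h3
    have h4 : 2 * Matrix.trace (B * U) = 0 := by linear_combination h3
    exact (mul_eq_zero.mp h4).resolve_left h2
  have e := quat_expand h2 h B
  have hK : Quat (I * J) I := quat_symm (quat_IK h)
  rw [key I J h hJ, key J I (quat_symm h) hI, key (I * J) I hK hI, zero_smul, zero_smul, zero_smul, sub_zero,
    sub_zero, sub_zero] at e
  refine ⟨(2 : F)⁻¹ * Matrix.trace B, ?_⟩
  rw [← smul_smul, ← e, smul_smul, inv_mul_cancel₀ h2, one_smul]

/-- intertwiner -/
def inter (I J I' J' X : Matrix (Fin 2) (Fin 2) F) : Matrix (Fin 2) (Fin 2) F :=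
  X - I' * X * I - J' * X * J - (I' * J') * X * (I * J)

theorem inter_I (h : Quat I J) (h' : Quat I' J') (X : Matrix (Fin 2) (Fin 2) F) :
    inter I J I' J' X * I = I' * inter I J I' J' X := by
  unfold inter
  have e1 : I' * X * I * I = -(I' * X) := by rw [mul_assoc, h.ii, mul_neg_one]
  have e2 : J' * X * J * I = -(J' * X * (I * J)) := by rw [mul_assoc, h.ji, mul_neg]
  have e3 : I' * J' * X * (I * J) * I = I' * J' * X * J := by rw [mul_assoc, h.Ki]
  have f1 : I' * (I' * X * I) = -(X * I) := by rw [← mul_assoc, ← mul_assoc, h'.ii, neg_one_mul, neg_mul]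
  have f2 : I' * (J' * X * J) = I' * J' * X * J := by noncomm_ring
  have f3 : I' * (I' * J' * X * (I * J)) = -(J' * X * (I * J)) := by
    have : I' * (I' * J' * X * (I * J)) = (I' * (I' * J')) * X * (I * J) := by noncomm_ring
    rw [this, h'.iK, neg_mul, neg_mul]
  rw [sub_mul, sub_mul, sub_mul, e1, e2, e3, mul_sub, mul_sub, mul_sub, f1, f2, f3]
  abel

theorem inter_J (h : Quat I J) (h' : Quat I' J') (X : Matrix (Fin 2) (Fin 2) F) :
    inter I J I' J' X * J = J' * inter I J I' J' X := by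
  unfold inter
  have e1 : I' * X * I * J = I' * X * (I * J) := by rw [mul_assoc]
  have e2 : J' * X * J * J = -(J' * X) := by rw [mul_assoc, h.jj, mul_neg_one]
  have e3 : I' * J' * X * (I * J) * J = -(I' * J' * X * I) := by rw [mul_assoc, h.Kj, mul_neg]
  have f1 : J' * (I' * X * I) = -(I' * J' * X * I) := by rw [← mul_assoc, ← mul_assoc, h'.ji, neg_mul, neg_mul]
  have f2 : J' * (J' * X * J) = -(X * J) := by rw [← mul_assoc, ← mul_assoc, h'.jj, neg_one_mul, neg_mul]
  have f3 : J' * (I' * J' * X * (I * J)) = I' * X * (I * J) := by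
    have : J' * (I' * J' * X * (I * J)) = (J' * (I' * J')) * X * (I * J) := by noncomm_ring
    rw [this, h'.jK]
  rw [sub_mul, sub_mul, sub_mul, e1, e2, e3, mul_sub, mul_sub, mul_sub, f1, f2, f3]
  abel

theorem inter_sum (A B : Matrix (Fin 2) (Fin 2) F) :
    ∑ i : Fin 2, ∑ j : Fin 2, (A * Matrix.single i j (1 : F) * B) i j = Matrix.trace A * Matrix.trace B := by
  simp [Fin.sum_univ_two, Matrix.mul_apply, Matrix.trace, Matrix.single_apply]
  ring

/-- a nonzero intertwiner is invertible -/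
theorem inter_inv (h2 : (2 : F) ≠ 0) (h : Quat I J) {g : Matrix (Fin 2) (Fin 2) F} (hI : g * I = I' * g)
    (hJ : g * J = J' * g) (hg : g ≠ 0) : g.det ≠ 0 := by
  intro hdet
  obtain ⟨v, hv0, hv⟩ := Matrix.exists_mulVec_eq_zero_iff.mpr hdet
  have key : ∀ w : Fin 2 → F, g *ᵥ w = 0 → ∃ c : F, w = c • v := by
    intro w hw
    by_cases hD : v 0 * w 1 - v 1 * w 0 = 0
    · by_cases h0 : v 0 = 0
      · have h1 : v 1 ≠ 0 := by
          intro h1; apply hv0; ext i; fin_cases i
          · exact h0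
          · exact h1
        refine ⟨w 1 / v 1, ?_⟩
        ext i; fin_cases i
        · have : v 1 * w 0 = 0 := by rw [h0] at hD; linear_combination -hD
          have := (mul_eq_zero.mp this).resolve_left h1
          simp [this, h0]
        · simp; field_simp
      · refine ⟨w 0 / v 0, ?_⟩
        ext i; fin_cases i
        · simp; field_simp
        · simp; field_simp; linear_combination hD
    · exfalso
      apply hg
      have e0 := congrFun hv 0
      have e1 := congrFun hv 1
      have e2 := congrFun hw 0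
      have e3 := congrFun hw 1
      simp [Matrix.mulVec, dotProduct, Fin.sum_univ_two] at e0 e1 e2 e3
      ext i j
      fin_cases i <;> fin_cases j <;> simp
      · apply mul_left_cancel₀ hD; linear_combination w 1 * e0 - v 1 * e2
      · apply mul_left_cancel₀ hD; linear_combination v 0 * e2 - w 0 * e0
      · apply mul_left_cancel₀ hD; linear_combination w 1 * e1 - v 1 * e3
      · apply mul_left_cancel₀ hD; linear_combination v 0 * e3 - w 0 * e1
  obtain ⟨a, ha⟩ := key (I *ᵥ v) (by rw [Matrix.mulVec_mulVec, hI, ← Matrix.mulVec_mulVec, hv, Matrix.mulVec_zero])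
  obtain ⟨b, hb⟩ := key (J *ᵥ v) (by rw [Matrix.mulVec_mulVec, hJ, ← Matrix.mulVec_mulVec, hv, Matrix.mulVec_zero])
  have h3 : (I * J) *ᵥ v = (a * b) • v := by rw [← Matrix.mulVec_mulVec, hb, Matrix.mulVec_smul, ha, smul_smul, mul_comm]
  have h4 : (J * I) *ᵥ v = (a * b) • v := by rw [← Matrix.mulVec_mulVec, ha, Matrix.mulVec_smul, hb, smul_smul]
  rw [h.ji, Matrix.neg_mulVec, h3, neg_eq_iff_add_eq_zero, ← add_smul] at h4
  have h5 : a * b + a * b = 0 := (smul_eq_zero.mp h4).resolve_right hv0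
  have h6 : a * b = 0 := by
    have : 2 * (a * b) = 0 := by linear_combination h5
    exact (mul_eq_zero.mp this).resolve_left h2
  have ha2 : a * a = -1 := by
    have : (I * I) *ᵥ v = (a * a) • v := by rw [← Matrix.mulVec_mulVec, ha, Matrix.mulVec_smul, ha, smul_smul]
    rw [h.ii, Matrix.neg_mulVec, Matrix.one_mulVec, neg_eq_iff_add_eq_zero, ← one_smul F v, smul_smul, ← add_smul] at this
    have h7 := (smul_eq_zero.mp this).resolve_right hv0
    linear_combination h7
  have hb2 : b * b = -1 := by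
    have : (J * J) *ᵥ v = (b * b) • v := by rw [← Matrix.mulVec_mulVec, hb, Matrix.mulVec_smul, hb, smul_smul]
    rw [h.jj, Matrix.neg_mulVec, Matrix.one_mulVec, neg_eq_iff_add_eq_zero, ← one_smul F v, smul_smul, ← add_smul] at this
    have h7 := (smul_eq_zero.mp this).resolve_right hv0
    linear_combination h7
  rcases mul_eq_zero.mp h6 with h7 | h7
  · rw [h7, mul_zero] at ha2
    exact one_ne_zero (neg_eq_zero.mp ha2.symm)
  · rw [h7, mul_zero] at hb2
    exact one_ne_zero (neg_eq_zero.mp hb2.symm)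

/-- **Skolem-Noether** for quaternion pairs -/
theorem skolem (h2 : (2 : F) ≠ 0) (h : Quat I J) (h' : Quat I' J') :
    ∃ g : GL (Fin 2) F, g.1 * I = I' * g.1 ∧ g.1 * J = J' * g.1 := by
  obtain ⟨X, hX⟩ : ∃ X, inter I J I' J' X ≠ 0 := by
    by_contra hcon
    push Not at hcon
    have h1 : ∑ i : Fin 2, ∑ j : Fin 2, (inter I J I' J' (Matrix.single i j (1 : F))) i j = 4 := by
      have e : ∀ i j : Fin 2, (inter I J I' J' (Matrix.single i j (1 : F))) i j =
          ((1 : Matrix (Fin 2) (Fin 2) F) * Matrix.single i j (1 : F) * (1 : Matrix (Fin 2) (Fin 2) F)) i j - (I' * Matrix.single i j (1 : F) * I) i j -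
          (J' * Matrix.single i j (1 : F) * J) i j - (I' * J' * Matrix.single i j (1 : F) * (I * J)) i j := by
        intro i j
        rw [one_mul, mul_one]; rfl
      simp only [e, Finset.sum_sub_distrib, inter_sum, quat_trI h2 h, quat_trJ h2 h, quat_trK h2 h, mul_zero, sub_zero]
      rw [Matrix.trace_one]; simp; norm_num
    have h3 : ∑ i : Fin 2, ∑ j : Fin 2, (inter I J I' J' (Matrix.single i j (1 : F))) i j = 0 := by
      apply Finset.sum_eq_zero; intro i _
      apply Finset.sum_eq_zero; intro j _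
      rw [hcon]; rfl
    rw [h3] at h1
    have h4 : (2 : F) * 2 = 0 := by linear_combination -h1
    exact h2 (mul_self_eq_zero.mp h4)
  have hdet := inter_inv h2 h (inter_I h h' X) (inter_J h h' X) hX
  exact ⟨Matrix.GeneralLinearGroup.mkOfDetNeZero _ hdet, inter_I h h' X, inter_J h h' X⟩

end Quat

end Cfsg.Agent.Lib.DkQuat
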