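import Mathlib
import Cfsg.Agent.Lib.DkQuat
import Cfsg.Agent.Lib.MobAlt

/-!
# Klein four-subgroups of `PGL_2(q)` inside `PSL_2(q)` and their normalizers (helper98)
-/

set_option autoImplicit false
set_option linter.unusedSectionVars false

namespace Cfsg.Agent.Lib.DkKlein

open Cfsg.Agent.Lib Cfsg.Agent.Lib.MobCount Cfsg.Agent.Lib.MobOct Cfsg.Agent.Lib.MobKlein MulAction Matrix
  Cfsg.Agent.Lib.ClProjLine Cfsg.Agent.Lib.DkTorus Cfsg.Agent.Lib.DkSub Cfsg.Agent.Lib.DkMax Cfsg.Agent.Lib.DkSmall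
  Cfsg.Agent.Lib.DkQuat
open scoped LinearAlgebra.Projectivization MatrixGroups

section

variable {F : Type*} [Field F]

theorem quat_det (h2 : (2 : F) ≠ 0) {I J : Matrix (Fin 2) (Fin 2) F} (h : Quat I J) : I.det = 1 := by
  have h1 := Matrix.aeval_self_charpoly I
  have h3 := SL2Tori.cayley2 I
  rw [h.ii, quat_trI h2 h, zero_smul, zero_sub] at h3
  have h4 := congrFun (congrFun h3 0) 0
  simp at h4
  exact h4.symm

/-- the element of `SL_2` -/
def sl (I : Matrix (Fin 2) (Fin 2) F) (h : I.det = 1) : SL(2, F) := ⟨I, h⟩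

/-- a matrix with `I² = -1` as element of `PGL_2` -/
noncomputable def mkP (I : Matrix (Fin 2) (Fin 2) F) (h : I.det = 1) : PGL(Fin 2, F) :=
  Matrix.ProjGenLinGroup.mk (SpecialLinearGroup.toGL (sl I h))

theorem mkP_mem (I : Matrix (Fin 2) (Fin 2) F) (h : I.det = 1) : mkP I h ∈ LL F := by
  rw [← LL_eq]; exact ⟨sl I h, rfl⟩

/-- lifting a commuting pair of involutions of `L` -/
theorem lift_pair (h2 : (2 : F) ≠ 0) {x y : PGL(Fin 2, F)} (hx : x ∈ LL F) (hy : y ∈ LL F) (hxx : x * x = 1)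
    (hyy : y * y = 1) (hxy : x * y = y * x) (hx1 : x ≠ 1) (hy1 : y ≠ 1) (hne : x ≠ y) :
    ∃ (I J : Matrix (Fin 2) (Fin 2) F) (hI : I.det = 1) (hJ : J.det = 1), Quat I J ∧ x = mkP I hI ∧ y = mkP J hJ := by
  obtain ⟨x', rfl⟩ := hx
  obtain ⟨y', rfl⟩ := hy
  obtain ⟨i, rfl⟩ := QuotientGroup.mk_surjective x'
  obtain ⟨j, rfl⟩ := QuotientGroup.mk_surjective y'
  have hi0 : ∀ a b : P2 F, tP F a = tP F b → a = b := fun a b h => tP_inj h
  obtain ⟨h3, h4, h5⟩ := lift_anti h2 (x := ((i : SL(2, F)) : P2 F)) (y := ((j : SL(2, F)) : P2 F))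
    (hi0 _ _ (by rw [map_mul, hxx, map_one])) (hi0 _ _ (by rw [map_mul, hyy, map_one]))
    (hi0 _ _ (by rw [map_mul, hxy, map_mul])) (fun h => hx1 (by rw [h, map_one])) (fun h => hy1 (by rw [h, map_one]))
    (fun h => hne (by rw [h])) i j rfl rfl
  refine ⟨i.1, j.1, i.2, j.2, ⟨congrArg Subtype.val h3, congrArg Subtype.val h4, ?_⟩, ?_, ?_⟩
  · have := congrArg (fun A : SL(2, F) => (A : Matrix (Fin 2) (Fin 2) F)) h5
    change i.1 * j.1 = -(j.1 * i.1) at this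
    rw [this, neg_neg]
  · rw [tP, ProjectiveSpecialLinearGroup.toPGL_mk]; rfl
  · rw [tP, ProjectiveSpecialLinearGroup.toPGL_mk]; rfl

theorem conj_mkP {g : GL (Fin 2) F} {I I' : Matrix (Fin 2) (Fin 2) F} (hI : I.det = 1) (hI' : I'.det = 1)
    (h : g.1 * I = I' * g.1) : Matrix.ProjGenLinGroup.mk g * mkP I hI * (Matrix.ProjGenLinGroup.mk g)⁻¹ = mkP I' hI' := by
  rw [mul_inv_eq_iff_eq_mul, mkP, mkP, ← map_mul, ← map_mul]
  congr 1
  apply Units.ext
  exact h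

/-- all Klein pairs of `L` are conjugate in `PGL_2` -/
theorem pair_conj (h2 : (2 : F) ≠ 0) {I J I' J' : Matrix (Fin 2) (Fin 2) F} (hI : I.det = 1) (hJ : J.det = 1)
    (hI' : I'.det = 1) (hJ' : J'.det = 1) (h : Quat I J) (h' : Quat I' J') :
    ∃ g : PGL(Fin 2, F), g * mkP I hI * g⁻¹ = mkP I' hI' ∧ g * mkP J hJ * g⁻¹ = mkP J' hJ' := by
  obtain ⟨g, h3, h4⟩ := skolem h2 h h'
  exact ⟨Matrix.ProjGenLinGroup.mk g, conj_mkP hI hI' h3, conj_mkP hJ hJ' h4⟩

theorem mkP_eq {A : GL (Fin 2) F} {X : Matrix (Fin 2) (Fin 2) F} (hX : X.det = 1)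
    (h : (Matrix.ProjGenLinGroup.mk A : PGL(Fin 2, F)) = mkP X hX) : ∃ c : F, c ≠ 0 ∧ A.1 = c • X := by
  obtain ⟨c, hc, h3⟩ := smul_of_mk_eq h.symm
  exact ⟨c, hc, h3⟩

theorem gl_cancel {A : GL (Fin 2) F} {P Q : Matrix (Fin 2) (Fin 2) F} (h : P * A.1 = Q * A.1) : P = Q := by
  have h1 : P * A.1 * (A⁻¹ : GL (Fin 2) F).1 = Q * A.1 * (A⁻¹ : GL (Fin 2) F).1 := by rw [h]
  rw [mul_assoc, mul_assoc, ← Units.val_mul, mul_inv_cancel, Units.val_one, mul_one, mul_one] at h1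
  exact h1

theorem gl_cancel' {A : GL (Fin 2) F} {P Q : Matrix (Fin 2) (Fin 2) F} (h : A.1 * P = A.1 * Q) : P = Q := by
  have h1 : (A⁻¹ : GL (Fin 2) F).1 * (A.1 * P) = (A⁻¹ : GL (Fin 2) F).1 * (A.1 * Q) := by rw [h]
  rw [← mul_assoc, ← mul_assoc, ← Units.val_mul, inv_mul_cancel, Units.val_one, one_mul, one_mul] at h1
  exact h1

/-- conjugation in `PGL_2` of square roots of `-1` -/
theorem conj_sign {A : GL (Fin 2) F} {I X : Matrix (Fin 2) (Fin 2) F} (hI : I.det = 1) (hX : X.det = 1) (hII : I * I = -1)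
    (hXX : X * X = -1) (h : Matrix.ProjGenLinGroup.mk A * mkP I hI * (Matrix.ProjGenLinGroup.mk A)⁻¹ = mkP X hX) :
    ∃ c : F, (c = 1 ∨ c = -1) ∧ A.1 * I = (c • X) * A.1 := by
  rw [mul_inv_eq_iff_eq_mul, mkP, mkP, ← map_mul, ← map_mul] at h
  obtain ⟨c, hc, h1⟩ := smul_of_mk_eq h.symm
  have h3 : A.1 * I = c • (X * A.1) := h1
  refine ⟨c, ?_, by rw [h3, smul_mul_assoc]⟩
  have h4 : A.1 * (I * I) = (c * c) • (X * X * A.1) := by
    rw [← mul_assoc, h3, smul_mul_assoc, mul_assoc, h3, mul_smul_comm, smul_smul, mul_assoc]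
  rw [hII, hXX, mul_neg_one, neg_one_mul, smul_neg, neg_inj] at h4
  have h5 : (c * c - 1) • A.1 = 0 := by rw [sub_smul, one_smul, ← h4, sub_self]
  have h6 : A.1 ≠ 0 := by
    intro h0
    have := A.det_ne_zero
    rw [h0] at this
    simp at this
  have h7 := (smul_eq_zero.mp h5).resolve_right h6
  have h8 : (c - 1) * (c + 1) = 0 := by linear_combination h7
  rcases mul_eq_zero.mp h8 with h9 | h9
  · left; exact sub_eq_zero.mp h9
  · right; exact eq_neg_of_add_eq_zero_left h9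

variable {k : Type*} [Field k] (σ : k →+* F)

theorem map_det_one {X : Matrix (Fin 2) (Fin 2) k} (h : X.det = 1) : (X.map σ).det = 1 := by
  have : (X.map σ).det = σ X.det := (RingHom.map_det σ X).symm
  rw [this, h, map_one]

theorem map_quat {I J : Matrix (Fin 2) (Fin 2) k} (h : Quat I J) : Quat (I.map σ) (J.map σ) := by
  have e : ∀ X Y : Matrix (Fin 2) (Fin 2) k, (X * Y).map σ = X.map σ * Y.map σ := fun X Y => Matrix.map_mul
  have e1 : ((-1 : Matrix (Fin 2) (Fin 2) k)).map σ = -1 := by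
    ext i j; fin_cases i <;> fin_cases j <;> simp
  have e2 : ∀ X : Matrix (Fin 2) (Fin 2) k, (-X).map σ = -(X.map σ) := by intro X; ext i j; simp
  refine ⟨by rw [← e, h.ii, e1], by rw [← e, h.jj, e1], ?_⟩
  rw [← e, ← e, h.ji, e2]

theorem map_inj' : Function.Injective (fun X : Matrix (Fin 2) (Fin 2) k => X.map σ) := by
  intro X Y h
  ext i j
  have := congrFun (congrFun h i) j
  exact σ.injective this

/-- The normalizer of a rational Klein pair is rational. -/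
theorem norm_rat (h2 : (2 : F) ≠ 0) {I J : Matrix (Fin 2) (Fin 2) k} (h : Quat I J) (hI : (I.map σ).det = 1)
    (hJ : (J.map σ).det = 1) (hK : ((I * J).map σ).det = 1) (m : PGL(Fin 2, F))
    (h1 : m * mkP _ hI * m⁻¹ = mkP _ hI ∨ m * mkP _ hI * m⁻¹ = mkP _ hJ ∨ m * mkP _ hI * m⁻¹ = mkP _ hK)
    (h3 : m * mkP _ hJ * m⁻¹ = mkP _ hI ∨ m * mkP _ hJ * m⁻¹ = mkP _ hJ ∨ m * mkP _ hJ * m⁻¹ = mkP _ hK) :
    m ∈ (Matrix.ProjGenLinGroup.map (n := Fin 2) σ).range := by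
  have h2k : (2 : k) ≠ 0 := by
    intro h0; apply h2; rw [← map_ofNat σ 2, h0, map_zero]
  obtain ⟨A, rfl⟩ := Matrix.ProjGenLinGroup.mk_surjective m
  have hKK : Quat I (I * J) := quat_IK h
  have key : ∀ (Z : Matrix (Fin 2) (Fin 2) k) (hZ : (Z.map σ).det = 1) (hZZ : Z * Z = -1),
      (Matrix.ProjGenLinGroup.mk A * mkP _ hZ * (Matrix.ProjGenLinGroup.mk A)⁻¹ = mkP _ hI ∨
        Matrix.ProjGenLinGroup.mk A * mkP _ hZ * (Matrix.ProjGenLinGroup.mk A)⁻¹ = mkP _ hJ ∨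
        Matrix.ProjGenLinGroup.mk A * mkP _ hZ * (Matrix.ProjGenLinGroup.mk A)⁻¹ = mkP _ hK) →
      ∃ P : Matrix (Fin 2) (Fin 2) k, A.1 * Z.map σ = P.map σ * A.1 := by
    intro Z hZ hZZ hc
    have mq : ∀ X : Matrix (Fin 2) (Fin 2) k, X * X = -1 → X.map σ * X.map σ = -1 := by
      intro X hX
      have e : (X * X).map σ = X.map σ * X.map σ := Matrix.map_mul
      rw [← e, hX]
      ext i j; fin_cases i <;> fin_cases j <;> simp
    have fin : ∀ X : Matrix (Fin 2) (Fin 2) k, ∀ c : F, (c = 1 ∨ c = -1) → A.1 * Z.map σ = (c • X.map σ) * A.1 →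
        ∃ P : Matrix (Fin 2) (Fin 2) k, A.1 * Z.map σ = P.map σ * A.1 := by
      rintro X c (rfl | rfl) hX
      · exact ⟨X, by rw [hX, one_smul]⟩
      · refine ⟨-X, ?_⟩
        have : (-X).map σ = (-1 : F) • X.map σ := by ext i j; simp
        rw [this, hX]
    rcases hc with hc | hc | hc
    · obtain ⟨c, hc1, hc2⟩ := conj_sign hZ hI (mq _ hZZ) (mq _ h.ii) hc
      exact fin _ c hc1 hc2
    · obtain ⟨c, hc1, hc2⟩ := conj_sign hZ hJ (mq _ hZZ) (mq _ h.jj) hc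
      exact fin _ c hc1 hc2
    · obtain ⟨c, hc1, hc2⟩ := conj_sign hZ hK (mq _ hZZ) (mq _ h.KK) hc
      exact fin _ c hc1 hc2
  obtain ⟨P, hP⟩ := key I hI h.ii h1
  obtain ⟨Q, hQ⟩ := key J hJ h.jj h3
  have hF := map_quat σ h
  have e : ∀ X Y : Matrix (Fin 2) (Fin 2) k, (X * Y).map σ = X.map σ * Y.map σ := fun X Y => Matrix.map_mul
  have e1 : ((-1 : Matrix (Fin 2) (Fin 2) k)).map σ = -1 := by
    ext i j; fin_cases i <;> fin_cases j <;> simp
  have hPQ : Quat P Q := by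
    refine ⟨?_, ?_, ?_⟩
    · apply map_inj' σ
      change (P * P).map σ = (-1 : Matrix (Fin 2) (Fin 2) k).map σ
      rw [e, e1]
      apply gl_cancel (A := A)
      rw [mul_assoc, ← hP, ← mul_assoc, ← hP, mul_assoc, hF.ii, mul_neg_one, neg_one_mul]
    · apply map_inj' σ
      change (Q * Q).map σ = (-1 : Matrix (Fin 2) (Fin 2) k).map σ
      rw [e, e1]
      apply gl_cancel (A := A)
      rw [mul_assoc, ← hQ, ← mul_assoc, ← hQ, mul_assoc, hF.jj, mul_neg_one, neg_one_mul]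
    · apply map_inj' σ
      change (Q * P).map σ = (-(P * Q)).map σ
      have e2 : (-(P * Q)).map σ = -(P.map σ * Q.map σ) := by
        rw [← e, Matrix.map_neg _ (fun a => map_neg σ a)]
      rw [e, e2]
      apply gl_cancel (A := A)
      rw [mul_assoc, ← hP, ← mul_assoc, ← hQ, mul_assoc, hF.ji, mul_neg, neg_mul, mul_assoc (P.map σ), ← hQ, ← mul_assoc (P.map σ),
        ← hP, mul_assoc]
  obtain ⟨g, hg1, hg2⟩ := skolem h2k h hPQ
  have hg1' : (Matrix.GeneralLinearGroup.map σ g).1 * I.map σ = P.map σ * (Matrix.GeneralLinearGroup.map σ g).1 := by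
    have := congrArg (fun X : Matrix (Fin 2) (Fin 2) k => X.map σ) hg1
    simp only [e] at this
    exact this
  have hg2' : (Matrix.GeneralLinearGroup.map σ g).1 * J.map σ = Q.map σ * (Matrix.GeneralLinearGroup.map σ g).1 := by
    have := congrArg (fun X : Matrix (Fin 2) (Fin 2) k => X.map σ) hg2
    simp only [e] at this
    exact this
  set G := Matrix.GeneralLinearGroup.map σ g with hG
  obtain ⟨c, hc⟩ := quat_comm h2 hF ((G⁻¹ * A : GL (Fin 2) F).1) (by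
      apply gl_cancel' (A := G)
      rw [← mul_assoc, ← Units.val_mul, mul_inv_cancel_left, hP, ← mul_assoc, hg1', mul_assoc, ← Units.val_mul, mul_inv_cancel_left])
    (by
      apply gl_cancel' (A := G)
      rw [← mul_assoc, ← Units.val_mul, mul_inv_cancel_left, hQ, ← mul_assoc, hg2', mul_assoc, ← Units.val_mul, mul_inv_cancel_left])
  refine ⟨Matrix.ProjGenLinGroup.mk g, ?_⟩
  rw [Matrix.ProjGenLinGroup.map_mk, ← hG]
  have hAc : A.1 = c • G.1 := by
    have : A = G * (G⁻¹ * A) := by group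
    calc A.1 = (G * (G⁻¹ * A)).1 := by rw [← this]
      _ = G.1 * (G⁻¹ * A : GL (Fin 2) F).1 := Units.val_mul _ _
      _ = c • G.1 := by rw [hc, mul_smul_comm, mul_one]
  have hc0 : c ≠ 0 := by
    rintro rfl
    rw [zero_smul] at hAc
    have := A.det_ne_zero
    rw [hAc] at this
    simp at this
  exact mk_eq_of_smul hc0 hAc

end

end Cfsg.Agent.Lib.DkKlein
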