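import Mathlib
import Cfsg.Agent.Lib.DkKlein

/-!
# `A_4`, `S_4` in `PGL_2(q)`: location (helper98)
-/

set_option autoImplicit false
set_option linter.unusedSectionVars false

namespace Cfsg.Agent.Lib.DkKlein

open Cfsg.Agent.Lib Cfsg.Agent.Lib.MobCount Cfsg.Agent.Lib.MobOct Cfsg.Agent.Lib.MobKlein MulAction Matrix
  Cfsg.Agent.Lib.ClProjLine Cfsg.Agent.Lib.DkTorus Cfsg.Agent.Lib.DkSub Cfsg.Agent.Lib.DkMax Cfsg.Agent.Lib.DkSmall
  Cfsg.Agent.Lib.DkQuat
open scoped LinearAlgebra.Projectivization MatrixGroups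

/-- a pair of distinct commuting involutions -/
structure KP {G : Type*} [Group G] (x y : G) : Prop where
  xx : x * x = 1
  yy : y * y = 1
  xy : x * y = y * x
  x1 : x ≠ 1
  y1 : y ≠ 1
  ne : x ≠ y

namespace KP

variable {G : Type*} [Group G] {x y : G}

/-- the Klein group of a pair -/
def V (h : KP x y) : Subgroup G := kl x y h.xx h.yy h.xy

theorem mem_V (h : KP x y) (a : G) : a ∈ h.V ↔ a = 1 ∨ a = x ∨ a = y ∨ a = x * y := Iff.rfl

theorem card_V (h : KP x y) : Nat.card h.V = 4 := kl_card h.xx h.yy h.xy h.x1 h.y1 h.ne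

theorem of_hom {H : Type*} [Group H] (h : KP x y) (f : G →* H) (hf : Function.Injective f) : KP (f x) (f y) where
  xx := by rw [← map_mul, h.xx, map_one]
  yy := by rw [← map_mul, h.yy, map_one]
  xy := by rw [← map_mul, h.xy, map_mul]
  x1 := fun e => h.x1 (hf (by rw [e, map_one]))
  y1 := fun e => h.y1 (hf (by rw [e, map_one]))
  ne := fun e => h.ne (hf e)

theorem V_map {H : Type*} [Group H] (h : KP x y) (f : G →* H) (hf : Function.Injective f) :
    h.V.map f = (h.of_hom f hf).V := by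
  ext a
  constructor
  · rintro ⟨b, hb, rfl⟩
    rcases hb with rfl | rfl | rfl | rfl
    · left; exact map_one f
    · right; left; rfl
    · right; right; left; rfl
    · right; right; right; exact map_mul f _ _
  · rintro (rfl | rfl | rfl | rfl)
    · exact ⟨1, Or.inl rfl, map_one f⟩
    · exact ⟨x, Or.inr (Or.inl rfl), rfl⟩
    · exact ⟨y, Or.inr (Or.inr (Or.inl rfl)), rfl⟩
    · exact ⟨x * y, Or.inr (Or.inr (Or.inr rfl)), map_mul f _ _⟩

theorem finite_V (h : KP x y) : Finite h.V := Nat.finite_of_card_ne_zero (by rw [h.card_V]; norm_num)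

/-- membership in the normalizer -/
theorem mem_norm (h : KP x y) {m : G} (h1 : m * x * m⁻¹ ∈ h.V) (h2 : m * y * m⁻¹ ∈ h.V) :
    m ∈ Subgroup.normalizer (h.V : Set G) := by
  have := h.finite_V
  apply Subgroup.mem_normalizer_fintype
  intro n hn
  rcases hn with rfl | rfl | rfl | rfl
  · rw [mul_one, mul_inv_cancel]; exact h.V.one_mem
  · exact h1
  · exact h2
  · have : m * (x * y) * m⁻¹ = (m * x * m⁻¹) * (m * y * m⁻¹) := by group
    rw [this]; exact h.V.mul_mem h1 h2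

theorem norm_x (h : KP x y) {m : G} (hm : m ∈ Subgroup.normalizer (h.V : Set G)) :
    (m * x * m⁻¹ = x ∨ m * x * m⁻¹ = y ∨ m * x * m⁻¹ = x * y) ∧ (m * y * m⁻¹ = x ∨ m * y * m⁻¹ = y ∨ m * y * m⁻¹ = x * y) := by
  rw [Subgroup.mem_normalizer_iff] at hm
  constructor
  · rcases (hm x).mp (Or.inr (Or.inl rfl)) with e | e | e | e
    · rw [mul_inv_eq_one, mul_eq_left] at e; exact absurd e h.x1
    · left; exact e
    · right; left; exact e
    · right; right; exact e
  · rcases (hm y).mp (Or.inr (Or.inr (Or.inl rfl))) with e | e | e | e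
    · rw [mul_inv_eq_one, mul_eq_left] at e; exact absurd e h.y1
    · left; exact e
    · right; left; exact e
    · right; right; exact e

end KP

section

variable {F : Type*} [Field F]

theorem mkP_mul {I J : Matrix (Fin 2) (Fin 2) F} (hI : I.det = 1) (hJ : J.det = 1) (hK : (I * J).det = 1) :
    mkP I hI * mkP J hJ = mkP (I * J) hK := by
  rw [mkP, mkP, mkP, ← map_mul, ← map_mul]
  congr 2

/-- conjugacy of Klein pairs of `L` -/
theorem kp_conj (h2 : (2 : F) ≠ 0) {x y x' y' : PGL(Fin 2, F)} (h : KP x y) (h' : KP x' y') (hx : x ∈ LL F) (hy : y ∈ LL F)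
    (hx' : x' ∈ LL F) (hy' : y' ∈ LL F) : ∃ g : PGL(Fin 2, F), g * x * g⁻¹ = x' ∧ g * y * g⁻¹ = y' := by
  obtain ⟨I, J, hI, hJ, hQ, rfl, rfl⟩ := lift_pair h2 hx hy h.xx h.yy h.xy h.x1 h.y1 h.ne
  obtain ⟨I', J', hI', hJ', hQ', rfl, rfl⟩ := lift_pair h2 hx' hy' h'.xx h'.yy h'.xy h'.x1 h'.y1 h'.ne
  exact pair_conj h2 hI hJ hI' hJ' hQ hQ'

/-- the normalizer of a Klein group of `L` is conjugate into every subfield subgroup -/
theorem kp_field [Finite F] (h2 : (2 : F) ≠ 0) {x y : PGL(Fin 2, F)} (h : KP x y) (hx : x ∈ LL F) (hy : y ∈ LL F)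
    (k : Subfield F) : ∃ g : PGL(Fin 2, F), ∀ m ∈ Subgroup.normalizer (h.V : Set (PGL(Fin 2, F))),
      g * m * g⁻¹ ∈ (Matrix.ProjGenLinGroup.map (n := Fin 2) k.subtype).range := by
  have h2k : (2 : k) ≠ 0 := by
    intro h0; apply h2; rw [← map_ofNat k.subtype 2, h0, map_zero]
  obtain ⟨I, J, hI, hJ, hQ, rfl, rfl⟩ := lift_pair h2 hx hy h.xx h.yy h.xy h.x1 h.y1 h.ne
  obtain ⟨⟨⟨i, j⟩, hi, hj, hij⟩⟩ := exists_AP (F := k) h2k
  have hq : Quat i.1 j.1 := by
    refine ⟨congrArg Subtype.val hi, congrArg Subtype.val hj, ?_⟩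
    have := congrArg (fun A : SL(2, k) => (A : Matrix (Fin 2) (Fin 2) k)) hij
    change i.1 * j.1 = -(j.1 * i.1) at this
    rw [this, neg_neg]
  have di := map_det_one k.subtype i.2
  have dj := map_det_one k.subtype j.2
  have dk : ((i.1 * j.1).map k.subtype).det = 1 := map_det_one k.subtype (by rw [Matrix.det_mul, i.2, j.2, mul_one])
  obtain ⟨g, hg1, hg2⟩ := pair_conj h2 hI hJ di dj hQ (map_quat k.subtype hq)
  have hg3 : g * (mkP I hI * mkP J hJ) * g⁻¹ = mkP _ dk := by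
    have : g * (mkP I hI * mkP J hJ) * g⁻¹ = (g * mkP I hI * g⁻¹) * (g * mkP J hJ * g⁻¹) := by group
    rw [this, hg1, hg2]
    have e : (i.1 * j.1).map k.subtype = i.1.map k.subtype * j.1.map k.subtype := Matrix.map_mul
    have dk' : (i.1.map k.subtype * j.1.map k.subtype).det = 1 := by rw [← e]; exact dk
    rw [mkP_mul di dj dk']
    congr 1
  refine ⟨g, fun m hm => ?_⟩
  obtain ⟨h1, h3⟩ := h.norm_x hm
  apply norm_rat k.subtype h2 hq di dj dk
  · have e : g * m * g⁻¹ * mkP _ di * (g * m * g⁻¹)⁻¹ = g * (m * mkP I hI * m⁻¹) * g⁻¹ := by rw [← hg1]; group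
    rw [e]
    rcases h1 with h1 | h1 | h1 <;> rw [h1]
    · left; exact hg1
    · right; left; exact hg2
    · right; right; exact hg3
  · have e : g * m * g⁻¹ * mkP _ dj * (g * m * g⁻¹)⁻¹ = g * (m * mkP J hJ * m⁻¹) * g⁻¹ := by rw [← hg2]; group
    rw [e]
    rcases h3 with h3 | h3 | h3 <;> rw [h3]
    · left; exact hg1
    · right; left; exact hg2
    · right; right; exact hg3

end

/-- the Klein pair of `A_4` -/
def xA : alternatingGroup (Fin 4) := ⟨Equiv.swap 0 1 * Equiv.swap 2 3, by rw [Equiv.Perm.mem_alternatingGroup]; decide⟩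
def yA : alternatingGroup (Fin 4) := ⟨Equiv.swap 0 2 * Equiv.swap 1 3, by rw [Equiv.Perm.mem_alternatingGroup]; decide⟩
def xS : Equiv.Perm (Fin 4) := Equiv.swap 0 1 * Equiv.swap 2 3
def yS : Equiv.Perm (Fin 4) := Equiv.swap 0 2 * Equiv.swap 1 3

theorem kpS : KP xS yS where
  xx := by decide
  yy := by decide
  xy := by decide
  x1 := by decide
  y1 := by decide
  ne := by decide

theorem kpA : KP xA yA where
  xx := Subtype.ext (by decide)
  yy := Subtype.ext (by decide)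
  xy := Subtype.ext (by decide)
  x1 := fun h => absurd (congrArg Subtype.val h) (by decide)
  y1 := fun h => absurd (congrArg Subtype.val h) (by decide)
  ne := fun h => absurd (congrArg Subtype.val h) (by decide)

theorem normS : ∀ m : Equiv.Perm (Fin 4), (m * xS * m⁻¹ = 1 ∨ m * xS * m⁻¹ = xS ∨ m * xS * m⁻¹ = yS ∨ m * xS * m⁻¹ = xS * yS) ∧
    (m * yS * m⁻¹ = 1 ∨ m * yS * m⁻¹ = xS ∨ m * yS * m⁻¹ = yS ∨ m * yS * m⁻¹ = xS * yS) := by
  decide +kernel

theorem normA : ∀ m : alternatingGroup (Fin 4), (m * xA * m⁻¹ = 1 ∨ m * xA * m⁻¹ = xA ∨ m * xA * m⁻¹ = yA ∨ m * xA * m⁻¹ = xA * yA) ∧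
    (m * yA * m⁻¹ = 1 ∨ m * yA * m⁻¹ = xA ∨ m * yA * m⁻¹ = yA ∨ m * yA * m⁻¹ = xA * yA) := by
  intro m
  obtain ⟨h1, h2⟩ := normS m.1
  constructor
  · rcases h1 with h | h | h | h
    · left; exact Subtype.ext h
    · right; left; exact Subtype.ext h
    · right; right; left; exact Subtype.ext h
    · right; right; right; exact Subtype.ext h
  · rcases h2 with h | h | h | h
    · left; exact Subtype.ext h
    · right; left; exact Subtype.ext h
    · right; right; left; exact Subtype.ext h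
    · right; right; right; exact Subtype.ext h

section

variable {F : Type*} [Field F] [Fintype F]

/-- homomorphisms from `A_4` land in `L` -/
theorem alt_le_LL {n : ℕ} (j : alternatingGroup (Fin n) →* PGL(Fin 2, F)) : j.range ≤ LL F := by
  have h1 : ((LL F).comap j).index ∣ (LL F).index := by
    have : ((LL F).comap j).index = (LL F).relIndex j.range := by
      rw [Subgroup.index_comap]
    rw [this]
    exact Subgroup.relIndex_dvd_index_of_normal _ _
  rw [index_LL] at h1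
  have h3 := h1.trans (Nat.gcd_dvd_left 2 _)
  have h4 : ((LL F).comap j).index = 1 := by
    rcases (Nat.dvd_prime Nat.prime_two).mp h3 with h | h
    · exact h
    · exact absurd h (no_index_two_alt n (MulEquiv.refl _) _)
  rw [Subgroup.index_eq_one] at h4
  rintro _ ⟨t, rfl⟩
  have : t ∈ (LL F).comap j := by rw [h4]; trivial
  exact this

/-- location of `A_4` -/
theorem loc_A4 (j : alternatingGroup (Fin 4) →* PGL(Fin 2, F)) (hj : Function.Injective j) :
    ∃ (x y : PGL(Fin 2, F)) (h : KP x y), x ∈ LL F ∧ y ∈ LL F ∧ h.V ≤ j.range ∧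
      j.range ≤ Subgroup.normalizer (h.V : Set (PGL(Fin 2, F))) := by
  refine ⟨j xA, j yA, kpA.of_hom j hj, alt_le_LL j ⟨_, rfl⟩, alt_le_LL j ⟨_, rfl⟩, ?_, ?_⟩
  · rw [← kpA.V_map j hj]
    rintro _ ⟨t, _, rfl⟩
    exact ⟨t, rfl⟩
  · rintro _ ⟨t, rfl⟩
    obtain ⟨h1, h2⟩ := normA t
    apply KP.mem_norm
    · rw [← map_inv, ← map_mul, ← map_mul, ← kpA.V_map j hj]
      exact ⟨_, h1, rfl⟩
    · rw [← map_inv, ← map_mul, ← map_mul, ← kpA.V_map j hj]
      exact ⟨_, h2, rfl⟩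

/-- location of `S_4` -/
theorem loc_S4 (j : Equiv.Perm (Fin 4) →* PGL(Fin 2, F)) (hj : Function.Injective j) :
    ∃ (x y : PGL(Fin 2, F)) (h : KP x y), x ∈ LL F ∧ y ∈ LL F ∧ h.V ≤ j.range ∧
      j.range ≤ Subgroup.normalizer (h.V : Set (PGL(Fin 2, F))) := by
  have hA := alt_le_LL (j.comp (alternatingGroup (Fin 4)).subtype)
  refine ⟨j xS, j yS, kpS.of_hom j hj, hA ⟨xA, rfl⟩, hA ⟨yA, rfl⟩, ?_, ?_⟩
  · rw [← kpS.V_map j hj]
    rintro _ ⟨t, _, rfl⟩
    exact ⟨t, rfl⟩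
  · rintro _ ⟨t, rfl⟩
    obtain ⟨h1, h2⟩ := normS t
    apply KP.mem_norm
    · rw [← map_inv, ← map_mul, ← map_mul, ← kpS.V_map j hj]
      exact ⟨_, h1, rfl⟩
    · rw [← map_inv, ← map_mul, ← map_mul, ← kpS.V_map j hj]
      exact ⟨_, h2, rfl⟩

end

end Cfsg.Agent.Lib.DkKlein
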