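import Mathlib
import Cfsg.Agent.Lib.DkKlein2

/-!
# A maximal normalizer inside another subgroup: contradiction lemma (helper98)
-/

set_option autoImplicit false
set_option linter.unusedSectionVars false

namespace Cfsg.Agent.Lib.DkEmb

open Cfsg.Agent.Lib

theorem coatom_conj {G : Type*} [Group G] {M : Subgroup G} (hM : IsCoatom M) (φ : G ≃* G) : IsCoatom (M.map φ.toMonoidHom) := by
  refine ⟨?_, ?_⟩
  · intro h
    apply hM.1
    rw [eq_top_iff]
    intro x _
    have : φ x ∈ M.map φ.toMonoidHom := by rw [h]; trivial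
    obtain ⟨y, hy, hxy⟩ := this
    have : y = x := φ.injective hxy
    rwa [← this]
  · intro K hK
    have h1 : M < K.comap φ.toMonoidHom := by
      refine lt_of_le_of_ne (fun x hx => hK.le ⟨x, hx, rfl⟩) ?_
      rintro h
      apply hK.ne
      rw [h, Subgroup.map_comap_eq_self_of_surjective φ.surjective]
    have h3 := hM.2 _ h1
    rw [eq_top_iff]
    intro x _
    have : φ.symm x ∈ K.comap φ.toMonoidHom := by rw [h3]; trivial
    have h4 : φ (φ.symm x) ∈ K := this
    rwa [MulEquiv.apply_symm_apply] at h4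

theorem embed_contra {G T : Type*} [Group G] [Group T] [Finite G] (M : Subgroup G) (hM : IsCoatom M) (Q : Subgroup G)
    (hn : M ≤ Subgroup.normalizer (Q : Set G)) (hQ : Subgroup.normalizer (Q : Set G) ≠ ⊤) (j : T →* G)
    (hj : Function.Injective j) (hjr : j.range ≠ ⊤) (QT : Subgroup T) (g : G)
    (hg : QT.map j = Q.map (MulAut.conj g).toMonoidHom)
    (hcard : Nat.card M ≤ Nat.card (Subgroup.normalizer (QT : Set T))) (hne : Nat.card T ≠ Nat.card M) : False := by
  have hMN : M = Subgroup.normalizer (Q : Set G) := DkMax.eq_of_coatom hM hn hQ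
  have hMg := coatom_conj hM (MulAut.conj g)
  have h1 : Subgroup.normalizer ((Q.map (MulAut.conj g).toMonoidHom : Subgroup G) : Set G) = M.map (MulAut.conj g).toMonoidHom := by
    rw [hMN]
    exact (Subgroup.map_equiv_normalizer_eq Q (MulAut.conj g)).symm
  have h2 : (Subgroup.normalizer (QT : Set T)).map j ≤ M.map (MulAut.conj g).toMonoidHom := by
    rw [← h1, ← hg]
    exact Subgroup.le_normalizer_map j
  have h3 : (Subgroup.normalizer (QT : Set T)).map j = M.map (MulAut.conj g).toMonoidHom := by
    apply Subgroup.eq_of_le_of_card_ge h2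
    rw [Subgroup.card_map_of_injective hj, Subgroup.card_map_of_injective (MulAut.conj g).injective]
    exact hcard
  have h4 : M.map (MulAut.conj g).toMonoidHom ≤ j.range := by
    rw [← h3]
    rintro _ ⟨t, _, rfl⟩
    exact ⟨t, rfl⟩
  have h5 := DkMax.eq_of_coatom hMg h4 hjr
  apply hne
  have h6 : Nat.card (M.map (MulAut.conj g).toMonoidHom) = Nat.card M := Subgroup.card_map_of_injective (MulAut.conj g).injective
  rw [← h6, h5]
  exact Nat.card_congr (MonoidHom.ofInjective hj).toEquiv

theorem sylow_conj {G T : Type*} [Group G] [Group T] [Finite G] (r a : ℕ) [Fact r.Prime] (Q : Subgroup G) (j : T →* G)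
    (hj : Function.Injective j) (QT : Subgroup T) (hQ : Nat.card Q = r ^ a) (hQT : Nat.card QT = r ^ a)
    (hG : (Nat.card G).factorization r = a) : ∃ g : G, QT.map j = Q.map (MulAut.conj g).toMonoidHom := by
  let P : Sylow r G := Sylow.ofCard Q (by rw [hQ, hG])
  let P' : Sylow r G := Sylow.ofCard (QT.map j) (by rw [Subgroup.card_map_of_injective hj, hQT, hG])
  obtain ⟨g, hg⟩ := MulAction.exists_smul_eq G P P'
  refine ⟨g, ?_⟩
  have h1 := congrArg (fun S : Sylow r G => (S : Subgroup G)) hg
  exact h1.symm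

/-- combination -/
theorem embed_sylow {G T : Type*} [Group G] [Group T] [Finite G] (r a : ℕ) [Fact r.Prime] (M : Subgroup G) (hM : IsCoatom M)
    (Q : Subgroup G) (hn : M ≤ Subgroup.normalizer (Q : Set G)) (hQ : Subgroup.normalizer (Q : Set G) ≠ ⊤) (j : T →* G)
    (hj : Function.Injective j) (hjr : j.range ≠ ⊤) (QT : Subgroup T) (hQc : Nat.card Q = r ^ a) (hQT : Nat.card QT = r ^ a)
    (hG : (Nat.card G).factorization r = a)
    (hcard : Nat.card M ≤ Nat.card (Subgroup.normalizer (QT : Set T))) (hne : Nat.card T ≠ Nat.card M) : False := by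
  obtain ⟨g, hg⟩ := sylow_conj r a Q j hj QT hQc hQT hG
  exact embed_contra M hM Q hn hQ j hj hjr QT g hg hcard hne

end Cfsg.Agent.Lib.DkEmb
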