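import Mathlib
import Cfsg.Agent.Lib.DkMax
import Cfsg.Agent.Lib.FFTower

/-!
# Overgroups of subfield subgroups of `PSL_2(q)` (helper98)
-/

set_option autoImplicit false
set_option linter.unusedSectionVars false

namespace Cfsg.Agent.Lib.DkSubMax

open Cfsg.Agent.Lib Cfsg.Agent.Lib.MobCount MulAction Matrix Cfsg.Agent.Lib.ClProjLine Cfsg.Agent.Lib.DkTorus
  Cfsg.Agent.Lib.DkSub Cfsg.Agent.Lib.DkMax
open scoped LinearAlgebra.Projectivization MatrixGroups

theorem arith (p a b r m d : ℕ) (hp : p.Prime) (ha : 1 ≤ a) (hb : 1 ≤ b) (hr : r.Prime) (hm : 2 ≤ m)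
    (h : a * r = b * m) (hd1 : 1 ≤ d) (hd : d ≤ 2)
    (hdvd : (p ^ a) ^ 2 - 1 ∣ d * (p ^ b * ((p ^ b) ^ 2 - 1))) : a = b := by
  have hp1 : 1 < p := hp.one_lt
  have e1 : (p ^ a) ^ 2 = p ^ (2 * a) := by rw [← pow_mul, mul_comm]
  have e2 : (p ^ b) ^ 2 = p ^ (2 * b) := by rw [← pow_mul, mul_comm]
  have hcop : Nat.Coprime (p ^ (2 * a) - 1) (p ^ b) := by
    apply Nat.Coprime.pow_right
    rw [Nat.coprime_comm, hp.coprime_iff_not_dvd]
    intro h1
    have h2 : p ∣ p ^ (2 * a) := dvd_pow_self p (by omega)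
    have h3 := Nat.dvd_sub h2 h1
    have h4 : 1 ≤ p ^ (2 * a) := Nat.one_le_pow _ _ (by omega)
    have h5 : p ^ (2 * a) - (p ^ (2 * a) - 1) = 1 := by omega
    rw [h5] at h3
    exact hp1.ne' (Nat.dvd_one.mp h3)
  rw [e1, e2] at hdvd
  have h1 : p ^ (2 * a) - 1 ∣ d * (p ^ (2 * b) - 1) := by
    apply hcop.dvd_of_dvd_mul_left
    have : p ^ b * (d * (p ^ (2 * b) - 1)) = d * (p ^ b * (p ^ (2 * b) - 1)) := by ring
    rw [this]; exact hdvd
  have h2 : p ^ (2 * a) - 1 ∣ d * (p ^ (Nat.gcd (2 * a) (2 * b)) - 1) := by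
    rw [← Nat.pow_sub_one_gcd_pow_sub_one, ← Nat.gcd_mul_left]
    exact Nat.dvd_gcd (dvd_mul_left _ _) h1
  rw [Nat.gcd_mul_left] at h2
  have hg1 : 1 ≤ Nat.gcd a b := Nat.gcd_pos_of_pos_left _ (by omega)
  have hge : Nat.gcd a b = a := by
    by_contra hne
    obtain ⟨c, hc⟩ := Nat.gcd_dvd_left a b
    have hc2 : 2 ≤ c := by
      by_contra hlt
      have : c = 0 ∨ c = 1 := by omega
      rcases this with rfl | rfl
      · omega
      · apply hne; omega
    have h3 : 2 * Nat.gcd a b ≤ a := by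
      calc 2 * Nat.gcd a b = Nat.gcd a b * 2 := by ring
        _ ≤ Nat.gcd a b * c := Nat.mul_le_mul_left _ hc2
        _ = a := hc.symm
    have h4 : p ^ (2 * Nat.gcd a b) ≤ p ^ a := Nat.pow_le_pow_right (by omega) h3
    have h5 : 2 ^ 1 ≤ p ^ (2 * Nat.gcd a b) := by
      calc 2 ^ 1 ≤ p ^ 1 := Nat.pow_le_pow_left (by omega) 1
        _ ≤ p ^ (2 * Nat.gcd a b) := Nat.pow_le_pow_right (by omega) (by omega)
    have h6 := Nat.le_of_dvd (Nat.mul_pos (by omega) (by omega)) h2
    have h7 : p ^ (2 * a) = p ^ a * p ^ a := by rw [← pow_add]; ring_nf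
    have h8 : d * (p ^ (2 * Nat.gcd a b) - 1) ≤ 2 * (p ^ a - 1) := Nat.mul_le_mul hd (by omega)
    have h9 : 2 ≤ p ^ a := by omega
    have h10 : 2 * p ^ a ≤ p ^ a * p ^ a := Nat.mul_le_mul_right _ h9
    omega
  have hab : a ∣ b := by rw [← hge]; exact Nat.gcd_dvd_right a b
  obtain ⟨c, rfl⟩ := hab
  have h3 : r = c * m := by
    apply Nat.eq_of_mul_eq_mul_left (show 0 < a by omega)
    rw [h]; ring
  have h4 : m = r := by
    rcases (Nat.dvd_prime hr).mp (show m ∣ r from ⟨c, by rw [h3]; ring⟩) with h5 | h5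
    · omega
    · exact h5
  rw [h4] at h3
  have h5 : c = 1 := by
    have : 1 * r = c * r := by omega
    exact (Nat.eq_of_mul_eq_mul_right hr.pos this).symm
  rw [h5, mul_one]

variable {F : Type*} [Field F] [Fintype F] {K : Type*} [Field K] [Fintype K]

theorem map_toGL (σ : K →+* F) (S : SL(2, K)) :
    Matrix.GeneralLinearGroup.map σ (SpecialLinearGroup.toGL S) = SpecialLinearGroup.toGL (SpecialLinearGroup.map σ S : SL(2, F)) := by
  apply Units.ext
  ext i j
  simp

theorem mem_pslRange (σ : K →+* F) (S : SL(2, K)) :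
    (Matrix.ProjGenLinGroup.mk (SpecialLinearGroup.toGL (SpecialLinearGroup.map σ S : SL(2, F))) : PGL(Fin 2, F)) ∈ (pslMap σ).range := by
  refine ⟨(S : P2 K), ?_⟩
  rw [pslMap, MonoidHom.comp_apply, ProjectiveSpecialLinearGroup.toPGL_mk]
  change Matrix.ProjGenLinGroup.map (n := Fin 2) σ _ = _
  rw [Matrix.ProjGenLinGroup.map_mk, map_toGL]

/-- no common fixed point of the image of `PSL_2(K)` -/
theorem no_fix (σ : K →+* F) (x : ℙ F (Fin 2 → F)) (h : ∀ g ∈ (pslMap σ).range, g • x = x) : False := by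
  have e1 : (SpecialLinearGroup.map σ (ClSL2.uS (1 : K)) : SL(2, F)) = ClSL2.uS 1 := by
    ext i j
    fin_cases i <;> fin_cases j <;> simp
  have e2 : (SpecialLinearGroup.map σ (ClSL2.lS (1 : K)) : SL(2, F)) = ClSL2.lS 1 := by
    ext i j
    fin_cases i <;> fin_cases j <;> simp
  have h1 : tG (1 : F) • x = x := by
    apply h
    have := mem_pslRange σ (ClSL2.uS (1 : K))
    rw [e1, ClSL2.toGL_uS] at this
    exact this
  have h2 : (Matrix.ProjGenLinGroup.mk (SpecialLinearGroup.toGL (ClSL2.lS (1 : F))) : PGL(Fin 2, F)) • x = x := by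
    apply h
    have := mem_pslRange σ (ClSL2.lS (1 : K))
    rw [e2] at this
    exact this
  rcases e0_or_pt x with rfl | ⟨a, rfl⟩
  · unfold e0 at h2
    rw [fixed_iff] at h2
    obtain ⟨l, hl⟩ := h2
    have h3 := congrFun hl 1
    have h4 : (SpecialLinearGroup.toGL (ClSL2.lS (1 : F)) : GL (Fin 2) F).1 = !![1, 0; 1, 1] := ClSL2.coe_lS 1
    rw [h4] at h3
    simp [Matrix.mulVec, dotProduct, Fin.sum_univ_two] at h3
  · rw [tG_smul_pt] at h1
    have := pt_inj h1
    simp at this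

theorem card_K_dvd (p : ℕ) [Fact p.Prime] [CharP F p] (σ : K →+* F) : p ∣ Nat.card (P2 K) := by
  haveI : CharP K p := (RingHom.charP_iff σ σ.injective p).mpr inferInstance
  have h1 := card_P2 (F := K) rfl
  have h2 : p ∣ Fintype.card K := ClSLn.dvd_card_field p
  have h3 : p ∣ Nat.gcd 2 (Fintype.card K - 1) * Nat.card (P2 K) := by rw [h1]; exact h2.mul_right _
  rcases ((Fact.out : p.Prime).dvd_mul.mp h3) with h4 | h4
  · exfalso
    have h5 : p ∣ Fintype.card K - 1 := h4.trans (Nat.gcd_dvd_right _ _)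
    have h6 := Nat.dvd_sub h2 h5
    have h7 : 0 < Fintype.card K := Fintype.card_pos
    have h8 : Fintype.card K - (Fintype.card K - 1) = 1 := by omega
    rw [h8] at h6
    exact (Fact.out : p.Prime).one_lt.ne' (Nat.dvd_one.mp h6)
  · exact h4

/-- the subgroup of `PSL_2(F)` corresponding to `PSL_2(K)` -/
noncomputable def SP (σ : K →+* F) : Subgroup (P2 F) := (pslMap σ).range.comap (tP F)

theorem SP_map (σ : K →+* F) : (SP σ).map (tP F) = (pslMap σ).range := by
  rw [SP, Subgroup.map_comap_eq]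
  exact inf_eq_right.mpr (pslMap_mem_LL σ)

theorem SP_card (σ : K →+* F) : Nat.card (SP σ) = Nat.card (P2 K) := by
  rw [← card_pslRange σ, ← SP_map, Subgroup.card_map_of_injective tP_inj]

/-- **overgroups of a subfield subgroup of prime codegree** -/
theorem overgroups (p : ℕ) [Fact p.Prime] [CharP F p] (σ : K →+* F) (r : ℕ) (hr : r.Prime)
    (hK : Fintype.card K ^ r = Fintype.card F) (h2 : Fintype.card K ≠ 2) (M : Subgroup (P2 F)) (hM : M ≠ ⊤)
    (hle : SP σ ≤ M) :
    (∃ (g : PGL(Fin 2, F)) (k : Subfield F), Nat.card k = Fintype.card K ∧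
      ((M.map (tP F)).map (MulAut.conj g).toMonoidHom = (pslMap k.subtype).range ∨
      (M.map (tP F)).map (MulAut.conj g).toMonoidHom = (Matrix.ProjGenLinGroup.map (n := Fin 2) k.subtype).range)) ∨
    (p = 3 ∧ Nat.card M = 60 ∧ Nonempty (M ≃* alternatingGroup (Fin 5))) := by
  classical
  haveI : CharP K p := (RingHom.charP_iff σ σ.injective p).mpr inferInstance
  have hpp : p.Prime := Fact.out
  have hdvd : Nat.card (P2 K) ∣ Nat.card M := by
    rw [← SP_card σ]; exact Subgroup.card_dvd_of_le hle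
  have hpM : p ∣ Nat.card M := (card_K_dvd p σ).trans hdvd
  obtain ⟨a, ha0, ha⟩ := ClSLn.exists_card_eq_pow (F := K) p
  rcases psl_cases (F := F) rfl p M hM with ⟨h1, h3, _⟩ | ⟨C, hCM, hC, hp, hcard, _, _, _⟩ | ⟨h, _⟩ | ⟨h, _⟩ | ⟨h, h60, hA⟩ | ⟨_, x, hx⟩ | ⟨g, k, m, hm, hk, h⟩
  · exact absurd hpM h3
  · exfalso
    rw [hcard] at hpM
    rcases hpp.dvd_mul.mp hpM with h | h
    · have hp2 : p = 2 := (Nat.prime_dvd_prime_iff_eq hpp Nat.prime_two).mp h
      subst hp2
      have h4 : 4 ∣ Fintype.card K := by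
        rw [ha]
        have : 2 ≤ a := by
          by_contra hlt
          have : a = 1 := by omega
          rw [this] at ha; exact h2 ha
        exact pow_dvd_pow 2 this
      have h5 := card_P2 (F := K) rfl
      have h6 : Nat.gcd 2 (Fintype.card K - 1) = 1 := by
        rcases gcd_cases (F := K) rfl 2 with ⟨_, _, h⟩ | ⟨h, _, _⟩
        · exact h
        · exact absurd rfl h
      rw [h6, one_mul] at h5
      have h7 : 4 ∣ 2 * Nat.card C := by
        rw [← hcard]
        exact (h4.trans ⟨_, h5⟩).trans hdvd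
      apply hp
      omega
    · exact hp h
  · exact absurd hpM h
  · exact absurd hpM h
  · rcases h with h | h
    · exact absurd hpM h
    · right; exact ⟨h, h60, hA⟩
  · exfalso
    apply no_fix σ x
    intro g hg
    rw [← SP_map] at hg
    obtain ⟨s, hs, rfl⟩ := hg
    rw [toPGL_smul]
    exact hx (hle hs)
  · left
    refine ⟨g, k, ?_, h⟩
    haveI : CharP k p := (RingHom.charP_iff k.subtype k.subtype.injective p).mpr inferInstance
    have : Fintype k := Fintype.ofFinite k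
    obtain ⟨b, hb0, hb⟩ := ClSLn.exists_card_eq_pow (F := k) p
    rw [Nat.card_eq_fintype_card] at hk ⊢
    have hMk : Nat.card M ∣ Fintype.card k * (Fintype.card k ^ 2 - 1) := by
      rcases h with h | h
      · rw [card_of_range_psl M g k h, ← card_P2 (F := k) rfl]
        exact dvd_mul_left _ _
      · rw [card_of_range_pgl M g k h, card_G2 rfl]
    have hd : Fintype.card K ^ 2 - 1 ∣ Nat.gcd 2 (Fintype.card K - 1) * (Fintype.card k * (Fintype.card k ^ 2 - 1)) := by
      have h5 := card_P2 (F := K) rfl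
      have h6 : Fintype.card K ^ 2 - 1 ∣ Nat.gcd 2 (Fintype.card K - 1) * Nat.card (P2 K) := by
        rw [h5]; exact dvd_mul_left _ _
      exact h6.trans (Nat.mul_dvd_mul_left _ (hdvd.trans hMk))
    have hab : a = b := by
      refine arith p a b r m (Nat.gcd 2 (Fintype.card K - 1)) hpp (by omega) (by omega) hr hm ?_ (gcd_pos _)
        (Nat.le_of_dvd (by norm_num) (Nat.gcd_dvd_left _ _)) ?_
      · apply Nat.pow_right_injective hpp.two_le
        change p ^ (a * r) = p ^ (b * m)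
        rw [pow_mul, pow_mul, ← ha, ← hb, hK, hk]
      · rw [← ha, ← hb]; exact hd
    rw [ha, hb, hab]

end Cfsg.Agent.Lib.DkSubMax
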