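import Mathlib
import Cfsg.Agent.Lib.DkKlein2
import Cfsg.Agent.Lib.DkSubMax

/-!
# `A_5` in `PSL_2(q)`: field of definition (helper98)
-/

set_option autoImplicit false
set_option linter.unusedSectionVars false

namespace Cfsg.Agent.Lib.DkIcos

open Cfsg.Agent.Lib Cfsg.Agent.Lib.MobCount Cfsg.Agent.Lib.MobOct Cfsg.Agent.Lib.MobKlein MulAction Matrix
  Cfsg.Agent.Lib.ClProjLine Cfsg.Agent.Lib.DkTorus Cfsg.Agent.Lib.DkSub Cfsg.Agent.Lib.DkMax Cfsg.Agent.Lib.DkSmall
  Cfsg.Agent.Lib.DkQuat Cfsg.Agent.Lib.DkKlein Cfsg.Agent.Lib.DkSubMax Cfsg.Agent.Lib.SL2Basic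
open scoped LinearAlgebra.Projectivization MatrixGroups

/-- the Klein pair of `A_5` -/
def x5 : alternatingGroup (Fin 5) := ⟨Equiv.swap 0 1 * Equiv.swap 2 3, by rw [Equiv.Perm.mem_alternatingGroup]; decide⟩
def y5 : alternatingGroup (Fin 5) := ⟨Equiv.swap 0 2 * Equiv.swap 1 3, by rw [Equiv.Perm.mem_alternatingGroup]; decide⟩

theorem kp5 : KP x5 y5 where
  xx := Subtype.ext (by decide)
  yy := Subtype.ext (by decide)
  xy := Subtype.ext (by decide)
  x1 := fun h => absurd (congrArg Subtype.val h) (by decide)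
  y1 := fun h => absurd (congrArg Subtype.val h) (by decide)
  ne := fun h => absurd (congrArg Subtype.val h) (by decide)

section

variable {F : Type*} [Field F]

theorem mk_pow_one {S : SL(2, F)} {n : ℕ} (h : (Matrix.ProjGenLinGroup.mk (SpecialLinearGroup.toGL S) : PGL(Fin 2, F)) ^ n = 1) :
    S ^ n = 1 ∨ S ^ n = -1 := by
  rw [← psl_mk_eq_one]
  apply tP_inj
  rw [map_one, ← h, ← map_pow, ← map_pow, tP, ProjectiveSpecialLinearGroup.toPGL_mk]

theorem tr_center {S : SL(2, F)} (h : S ∈ Subgroup.center SL(2, F)) : tr S = 2 ∨ tr S = -2 := by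
  rcases (mem_center_iff' S).mp h with rfl | rfl
  · left; exact tr_one
  · right; rw [tr_neg, tr_one]

theorem tr_two (h2 : (2 : F) ≠ 0) {S : SL(2, F)} (h : S ^ 2 = 1 ∨ S ^ 2 = -1) : tr S = 0 ∨ tr S = 2 ∨ tr S = -2 := by
  rw [sq] at h
  rcases h with h | h
  · right
    rcases SL2Tori.eq_one_or_neg_one_of_sq h2 h with rfl | rfl
    · left; exact tr_one
    · right; rw [tr_neg, tr_one]
  · left; exact MobQuat.tr_of_sq h

theorem pow_three (y : SL(2, F)) : ((y ^ 3 : SL(2, F)) : Matrix (Fin 2) (Fin 2) F) =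
    (tr y ^ 2 - 1) • (y : Matrix (Fin 2) (Fin 2) F) - (tr y) • (1 : Matrix (Fin 2) (Fin 2) F) := by
  have hs := sq_eq y
  set t := tr y
  change (y : Matrix (Fin 2) (Fin 2) F) ^ 3 = _
  set Y := (y : Matrix (Fin 2) (Fin 2) F) with hY
  have h2 : Y ^ 2 = t • Y - 1 := by rw [sq, hs]
  rw [pow_succ, h2, sub_mul, smul_mul_assoc, hs, one_mul, smul_sub, smul_smul, sub_smul, one_smul, sq]
  abel

theorem tr_three {S : SL(2, F)} (h : S ^ 3 = 1 ∨ S ^ 3 = -1) : tr S = 1 ∨ tr S = -1 ∨ tr S = 2 ∨ tr S = -2 := by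
  by_cases hc : S ∈ Subgroup.center SL(2, F)
  · right; right; exact tr_center hc
  · have hne : tr S ^ 2 - 1 = 0 := by
      by_contra hne
      apply hc
      have h5 := pow_three S
      obtain ⟨c, hc⟩ : ∃ c : F, ((S ^ 3 : SL(2, F)) : Matrix (Fin 2) (Fin 2) F) = c • (1 : Matrix (Fin 2) (Fin 2) F) := by
        rcases h with h | h
        · exact ⟨1, by rw [h]; simp⟩
        · exact ⟨-1, by rw [h]; simp⟩
      rw [hc] at h5
      rw [mem_center_iff_entries]
      have e00 := congrFun (congrFun h5 0) 0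
      have e01 := congrFun (congrFun h5 0) 1
      have e10 := congrFun (congrFun h5 1) 0
      have e11 := congrFun (congrFun h5 1) 1
      simp at e00 e01 e10 e11
      refine ⟨e01.resolve_left hne, e10.resolve_left hne, ?_⟩
      apply mul_left_cancel₀ hne
      linear_combination e11 - e00
    have h3 : (tr S - 1) * (tr S + 1) = 0 := by linear_combination hne
    rcases mul_eq_zero.mp h3 with h4 | h4
    · left; exact sub_eq_zero.mp h4
    · right; left; exact eq_neg_of_add_eq_zero_left h4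

theorem tr_five {S : SL(2, F)} (h : S ^ 5 = 1 ∨ S ^ 5 = -1) : tr S ^ 4 - 3 * tr S ^ 2 + 1 = 0 ∨ tr S = 2 ∨ tr S = -2 := by
  by_cases hc : S ∈ Subgroup.center SL(2, F)
  · right; exact tr_center hc
  · left; exact MobPlat.tr_of_pow_five hc h

theorem tr_mem (h2 : (2 : F) ≠ 0) (k : Subfield F) (hk : ∀ t : F, t ^ 4 - 3 * t ^ 2 + 1 = 0 → t ∈ k) (S : SL(2, F))
    (h : (Matrix.ProjGenLinGroup.mk (SpecialLinearGroup.toGL S) : PGL(Fin 2, F)) ^ 2 = 1 ∨
      (Matrix.ProjGenLinGroup.mk (SpecialLinearGroup.toGL S) : PGL(Fin 2, F)) ^ 3 = 1 ∨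
      (Matrix.ProjGenLinGroup.mk (SpecialLinearGroup.toGL S) : PGL(Fin 2, F)) ^ 5 = 1) : tr S ∈ k := by
  have m2 : (2 : F) ∈ k := by
    have := k.add_mem k.one_mem k.one_mem
    rwa [one_add_one_eq_two] at this
  rcases h with h | h | h
  · rcases tr_two h2 (mk_pow_one h) with h | h | h <;> rw [h]
    · exact k.zero_mem
    · exact m2
    · exact k.neg_mem m2
  · rcases tr_three (mk_pow_one h) with h | h | h | h <;> rw [h]
    · exact k.one_mem
    · exact k.neg_mem k.one_mem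
    · exact m2
    · exact k.neg_mem m2
  · rcases tr_five (mk_pow_one h) with h | h | h
    · exact hk _ h
    · rw [h]; exact m2
    · rw [h]; exact k.neg_mem m2

end

variable {F : Type*} [Field F] [Fintype F]

theorem icos_field (h2 : (2 : F) ≠ 0) (j : alternatingGroup (Fin 5) →* PGL(Fin 2, F)) (hj : Function.Injective j)
    (k : Subfield F) (hk : ∀ t : F, t ^ 4 - 3 * t ^ 2 + 1 = 0 → t ∈ k) :
    ∃ g : PGL(Fin 2, F), j.range.map (MulAut.conj g).toMonoidHom ≤ (pslMap k.subtype).range := by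
  have hjL := alt_le_LL j
  have h2k : (2 : k) ≠ 0 := by
    intro h0; apply h2; rw [← map_ofNat k.subtype 2, h0, map_zero]
  have hkp := kp5.of_hom j hj
  obtain ⟨I, J, hI, hJ, hQ, ex, ey⟩ := lift_pair h2 (hjL ⟨x5, rfl⟩) (hjL ⟨y5, rfl⟩) hkp.xx hkp.yy hkp.xy hkp.x1 hkp.y1 hkp.ne
  obtain ⟨⟨⟨i, j'⟩, hi, hj', hij⟩⟩ := exists_AP (F := k) h2k
  have hq : Quat i.1 j'.1 := by
    refine ⟨congrArg Subtype.val hi, congrArg Subtype.val hj', ?_⟩
    have := congrArg (fun A : SL(2, k) => (A : Matrix (Fin 2) (Fin 2) k)) hij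
    change i.1 * j'.1 = -(j'.1 * i.1) at this
    rw [this, neg_neg]
  have di := map_det_one k.subtype i.2
  have dj := map_det_one k.subtype j'.2
  have hq' := map_quat k.subtype hq
  obtain ⟨g, hg1, hg2⟩ := pair_conj h2 hI hJ di dj hQ hq'
  set I1 := i.1.map k.subtype with hI1
  set J1 := j'.1.map k.subtype with hJ1
  have dk : (I1 * J1).det = 1 := by rw [Matrix.det_mul, di, dj, mul_one]
  set M1 := j.range.map (MulAut.conj g).toMonoidHom with hM1
  have mI : mkP I1 di ∈ M1 := ⟨j x5, ⟨x5, rfl⟩, by rw [← hg1, ← ex]; rfl⟩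
  have mJ : mkP J1 dj ∈ M1 := ⟨j y5, ⟨y5, rfl⟩, by rw [← hg2, ← ey]; rfl⟩
  have mK : mkP (I1 * J1) dk ∈ M1 := by
    rw [← mkP_mul di dj dk]; exact M1.mul_mem mI mJ
  have hord : ∀ m ∈ M1, m ^ 2 = 1 ∨ m ^ 3 = 1 ∨ m ^ 5 = 1 := by
    rintro _ ⟨_, ⟨t, rfl⟩, rfl⟩
    have h3 := alt5_orders t
    have e : ∀ n, ((MulAut.conj g).toMonoidHom (j t)) ^ n = (MulAut.conj g).toMonoidHom (j (t ^ n)) := by
      intro n; rw [map_pow, map_pow]
    rw [e, e, e]
    rcases h3 with h | h | h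
    · left; rw [h, map_one, map_one]
    · right; left; rw [h, map_one, map_one]
    · right; right; rw [h, map_one, map_one]
  have htr : ∀ S : SL(2, F), Matrix.ProjGenLinGroup.mk (SpecialLinearGroup.toGL S) ∈ M1 → tr S ∈ k :=
    fun S hS => tr_mem h2 k hk S (hord _ hS)
  refine ⟨g, ?_⟩
  intro m hm
  have hmL : m ∈ LL F := by
    obtain ⟨_, ⟨t, rfl⟩, rfl⟩ := hm
    exact LL_normal.conj_mem _ (hjL ⟨t, rfl⟩) g
  rw [← LL_eq] at hmL
  obtain ⟨S, rfl⟩ := hmL
  have hS : Matrix.ProjGenLinGroup.mk (SpecialLinearGroup.toGL S) ∈ M1 := hm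
  have prod : ∀ (X : Matrix (Fin 2) (Fin 2) F) (hX : X.det = 1), mkP X hX ∈ M1 → Matrix.trace (S.1 * X) ∈ k := by
    intro X hX hXm
    have h3 := htr (S * sl X hX) (by
      rw [map_mul, map_mul]
      exact M1.mul_mem hS hXm)
    rw [← SL2Basic.trace_eq] at h3
    exact h3
  have tI := prod I1 di mI
  have tJ := prod J1 dj mJ
  have tK := prod (I1 * J1) dk mK
  have t0 : Matrix.trace S.1 ∈ k := by
    have := htr S hS
    rwa [← SL2Basic.trace_eq] at this
  have hex := quat_expand h2 hq' S.1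
  have m2 : (2 : F) ∈ k := by
    have := k.add_mem k.one_mem k.one_mem
    rwa [one_add_one_eq_two] at this
  have hI1m : ∀ a b, I1 a b ∈ k := fun a b => (i.1 a b).2
  have hJ1m : ∀ a b, J1 a b ∈ k := fun a b => (j'.1 a b).2
  have hK1m : ∀ a b, (I1 * J1) a b ∈ k := by
    intro a b
    rw [Matrix.mul_apply]
    exact k.sum_mem (fun c _ => k.mul_mem (hI1m _ _) (hJ1m _ _))
  have hent : ∀ a b, S.1 a b ∈ k := by
    intro a b
    have h3 := congrFun (congrFun hex a) b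
    simp only [Matrix.smul_apply, Matrix.sub_apply, smul_eq_mul] at h3
    have h4 : (2 : F) * S.1 a b ∈ k := by
      rw [h3]
      refine k.sub_mem (k.sub_mem (k.sub_mem (k.mul_mem t0 ?_) (k.mul_mem tI (hI1m a b))) (k.mul_mem tJ (hJ1m a b)))
        (k.mul_mem tK (hK1m a b))
      rw [Matrix.one_apply]
      split_ifs
      · exact k.one_mem
      · exact k.zero_mem
    have h5 : S.1 a b = (2 : F)⁻¹ * (2 * S.1 a b) := by rw [← mul_assoc, inv_mul_cancel₀ h2, one_mul]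
    rw [h5]
    exact k.mul_mem (k.inv_mem m2) h4
  haveI : Fintype k := Fintype.ofFinite k
  let S0 : Matrix (Fin 2) (Fin 2) k := fun a b => ⟨S.1 a b, hent a b⟩
  have hS0 : S0.map k.subtype = S.1 := by ext a b; rfl
  have hdet : S0.det = 1 := by
    apply k.subtype.injective
    rw [RingHom.map_det, map_one]
    change (S0.map k.subtype).det = 1
    rw [hS0]; exact S.2
  have h6 := mem_pslRange k.subtype (⟨S0, hdet⟩ : SL(2, k))
  have h7 : (SpecialLinearGroup.map k.subtype (⟨S0, hdet⟩ : SL(2, k)) : SL(2, F)) = S := by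
    apply Subtype.ext
    exact hS0
  rw [h7] at h6
  exact h6

end Cfsg.Agent.Lib.DkIcos
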