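import Mathlib
import Cfsg.Agent.Lib.MobCard
import Cfsg.Agent.Lib.MobPlat
import Cfsg.Agent.Lib.Burnside
import Cfsg.Agent.Lib.FFTower

/-!
# Solvable and nonsolvable subgroups of `PSL_2(q)` (helper14)
-/

set_option autoImplicit false
set_option linter.unusedSectionVars false

namespace Cfsg.Agent.Lib.MobCount

open MulAction Matrix ClProjLine
open scoped LinearAlgebra.Projectivization MatrixGroups

section

variable {F : Type*} [Field F]

theorem solvable_stab_pgl (x : ℙ F (Fin 2 → F)) : Group.IsSolvable (stabilizer (PGL(Fin 2, F)) x) := by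
  have hk : Group.IsSolvable (chiHom x).ker := by
    apply Group.isSolvable_of_comm
    rintro ⟨g, hg⟩ ⟨h, hh⟩
    obtain ⟨A, hA, l, hl, hc⟩ := chiHom_eq_one x g hg
    obtain ⟨B, hB, m, hm, hd⟩ := chiHom_eq_one x h hh
    have := uni_commute A B x.rep x.rep_nonzero l m hl hc hm hd
    apply Subtype.ext
    apply Subtype.ext
    change g.1 * h.1 = h.1 * g.1
    rw [← hA, ← hB, ← map_mul, ← map_mul, this]
  exact Group.isSolvable_of_ker_le_range (chiHom x).ker.subtype (chiHom x) (by rw [Subgroup.range_subtype])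

theorem solvable_of_le_stab [Fintype F] (H : Subgroup (P2 F)) (x : ℙ F (Fin 2 → F)) (h : H ≤ stabilizer (P2 F) x) :
    Group.IsSolvable H := by
  haveI := solvable_stab_pgl x
  let f : H →* stabilizer (PGL(Fin 2, F)) x :=
    { toFun := fun g => ⟨Matrix.ProjectiveSpecialLinearGroup.toPGL g.1, by
        rw [mem_stabilizer_iff, toPGL_smul]; exact h g.2⟩
      map_one' := by apply Subtype.ext; exact map_one _
      map_mul' := fun a b => by apply Subtype.ext; exact map_mul _ _ _ }
  apply Group.isSolvable_of_isSolvable_injective (f := f)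
  intro a b hab
  apply Subtype.ext
  apply Matrix.ProjectiveSpecialLinearGroup.toPGL_injective
  exact congrArg (fun z : stabilizer (PGL(Fin 2, F)) x => (z : PGL(Fin 2, F))) hab

theorem isSolvable_of_cyclic_index_two {G : Type*} [Group G] [Finite G] (C : Subgroup G) [hC : IsCyclic C]
    (h : Nat.card G = 2 * Nat.card C) : Group.IsSolvable G := by
  have h1 : C.index = 2 := by
    have := Subgroup.card_mul_index C
    rw [h, mul_comm] at this
    exact Nat.eq_of_mul_eq_mul_right Nat.card_pos this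
  haveI := Subgroup.normal_of_index_eq_two h1
  rw [Group.isSolvable_iff_subgroup_quotient C]
  constructor
  · letI : CommGroup C := IsCyclic.commGroup
    infer_instance
  · have h2 : Nat.card (G ⧸ C) = 2 := h1
    haveI : Fact (Nat.Prime 2) := ⟨Nat.prime_two⟩
    have : IsCyclic (G ⧸ C) := isCyclic_of_prime_card h2
    letI : CommGroup (G ⧸ C) := IsCyclic.commGroup
    infer_instance

variable [Fintype F] {q : ℕ}

theorem exists_sq_ne (hq : 4 ≤ Fintype.card F) : ∃ a : F, a ≠ 0 ∧ a ^ 2 ≠ 1 := by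
  classical
  by_contra hcon
  push Not at hcon
  have h1 : (Finset.univ : Finset F) ⊆ {0, 1, -1} := by
    intro a _
    by_cases ha : a = 0
    · simp [ha]
    · have h2 : (a - 1) * (a + 1) = 0 := by linear_combination hcon a ha
      rcases mul_eq_zero.1 h2 with h3 | h3
      · simp [sub_eq_zero.1 h3]
      · simp [eq_neg_of_add_eq_zero_left h3]
  have h2 := Finset.card_le_card h1
  rw [Finset.card_univ] at h2
  have h3 : ({0, 1, -1} : Finset F).card ≤ 3 := Finset.card_le_three
  omega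

theorem simple_P2 (hq : 4 ≤ Fintype.card F) : IsSimpleGroup (P2 F) := by
  classical
  exact ClSLn.isSimpleGroup_PSL le_rfl (fun _ => exists_sq_ne hq)

theorem gcd_le_two : Nat.gcd 2 (q - 1) ≤ 2 := Nat.gcd_le_left _ (by norm_num)

/-- `PSL_2(q)` is not abelian. -/
theorem not_comm_P2 : ¬ ∀ a b : P2 F, a * b = b * a := by
  classical
  intro h
  have h1 := h ((ClSL2.uS 1 : SL(2, F)) : P2 F) ((ClSL2.lS 1 : SL(2, F)) : P2 F)
  have h2 : ((ClSL2.uS 1 * ClSL2.lS 1 * (ClSL2.lS 1 * ClSL2.uS 1)⁻¹ : SL(2, F)) : P2 F) = 1 := by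
    change ((ClSL2.uS 1 : SL(2, F)) : P2 F) * ((ClSL2.lS 1 : SL(2, F)) : P2 F) *
      (((ClSL2.lS 1 : SL(2, F)) : P2 F) * ((ClSL2.uS 1 : SL(2, F)) : P2 F))⁻¹ = 1
    rw [h1, mul_inv_cancel]
  rw [psl_mk_eq_one] at h2
  rcases h2 with h2 | h2
  · rw [mul_inv_eq_one] at h2
    have h3 := congrArg (fun A : SL(2, F) => (A : Matrix (Fin 2) (Fin 2) F) 0 0) h2
    simp at h3
  · have h4 : ClSL2.uS 1 * ClSL2.lS 1 = - (ClSL2.lS 1 * ClSL2.uS 1 : SL(2, F)) := by
      rw [mul_inv_eq_iff_eq_mul] at h2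
      rw [h2, neg_one_mul]
    have h3 := congrArg (fun A : SL(2, F) => (A : Matrix (Fin 2) (Fin 2) F) 0 0) h4
    have h5 := congrArg (fun A : SL(2, F) => (A : Matrix (Fin 2) (Fin 2) F) 0 1) h4
    simp at h3 h5
    have h6 : (1 : F) = 0 := by linear_combination h3 - h5
    exact one_ne_zero h6

theorem not_solvable_P2 (hq : 4 ≤ Fintype.card F) : ¬ Group.IsSolvable (P2 F) := by
  intro h
  haveI := simple_P2 (F := F) hq
  exact not_comm_P2 (F := F) (IsSimpleGroup.comm_iff_isSolvable.mpr h)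

theorem solvable_P2 (hq : Fintype.card F < 4) : Group.IsSolvable (P2 F) := by
  have h2 : 2 ≤ Fintype.card F := Fintype.one_lt_card
  have h3 := card_P2 (F := F) rfl
  have hc : Fintype.card F = 2 ∨ Fintype.card F = 3 := by omega
  rcases hc with hc | hc
  · rw [hc] at h3
    have h4 : Nat.card (P2 F) = 6 := by
      have h5 : Nat.gcd 2 (2 - 1) = 1 := rfl
      rw [h5, one_mul] at h3
      exact h3
    exact Burnside.isSolvable_of_card_eq 6 2 3 1 1 Nat.prime_two Nat.prime_three (by rw [h4]; norm_num) h4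
  · rw [hc] at h3
    have h4 : Nat.card (P2 F) = 12 := by
      have h5 : Nat.gcd 2 (3 - 1) = 2 := rfl
      have h6 : 3 * (3 ^ 2 - 1) = 24 := rfl
      rw [h5, h6] at h3
      omega
    exact Burnside.isSolvable_of_card_eq 12 2 3 2 1 Nat.prime_two Nat.prime_three (by rw [h4]; norm_num) h4

end

end Cfsg.Agent.Lib.MobCount
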