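import Mathlib
import Cfsg.Agent.Lib.DkEmb
import Cfsg.Agent.Lib.DkIcos
import Cfsg.Agent.Lib.MobSolv
import Cfsg.Agent.S0802
import Cfsg.Agent.S0803
import Cfsg.Agent.S0804
import Cfsg.Agent.S0805

/-!
# Small subgroups and arithmetic for the maximal subgroups of `PSL_2(q)` (helper98)
-/

set_option autoImplicit false
set_option linter.unusedSectionVars false

namespace Cfsg.Agent.Lib.DkSmall2

open Cfsg.Agent.Lib Cfsg.Agent.Lib.MobCount Cfsg.Agent.Lib.MobOct Cfsg.Agent.Lib.MobKlein MulAction Matrix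
  Cfsg.Agent.Lib.ClProjLine Cfsg.Agent.Lib.DkTorus Cfsg.Agent.Lib.DkSub Cfsg.Agent.Lib.DkMax Cfsg.Agent.Lib.DkSmall
  Cfsg.Agent.Lib.DkQuat Cfsg.Agent.Lib.DkKlein Cfsg.Agent.Lib.DkSubMax Cfsg.Agent.Lib.DkIcos
open scoped LinearAlgebra.Projectivization MatrixGroups

theorem fact_of (n r a m : ℕ) (hr : r.Prime) (h : n = r ^ a * m) (hm : ¬ r ∣ m) : n.factorization r = a := by
  have hm0 : m ≠ 0 := by rintro rfl; exact hm (dvd_zero r)
  rw [h, Nat.factorization_mul (pow_ne_zero _ hr.ne_zero) hm0, Finsupp.add_apply, hr.factorization_pow,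
    Finsupp.single_eq_same, Nat.factorization_eq_zero_of_not_dvd hm, add_zero]

theorem card_norm_ge {T : Type*} [Group T] [Fintype T] [DecidableEq T] (c : T) (n : ℕ)
    (h : n ≤ Fintype.card {t : T // t * c * t⁻¹ = c ∨ t * c * t⁻¹ = c⁻¹}) :
    n ≤ Nat.card (Subgroup.normalizer ((Subgroup.zpowers c : Subgroup T) : Set T)) := by
  refine h.trans ?_
  rw [← Nat.card_eq_fintype_card]
  refine Nat.card_le_card_of_injective (fun t => ⟨t.1, ?_⟩) (fun a b hab => Subtype.ext (congrArg (fun z => z.1) hab))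
  apply Subgroup.mem_normalizer_fintype
  rintro _ ⟨i, rfl⟩
  have h1 : t.1 * c ^ i * t.1⁻¹ = (t.1 * c * t.1⁻¹) ^ i := by
    have := map_zpow (MulAut.conj t.1).toMonoidHom c i
    exact this
  change t.1 * c ^ i * t.1⁻¹ ∈ Subgroup.zpowers c
  rw [h1]
  rcases t.2 with h | h <;> rw [h]
  · exact Subgroup.zpow_mem _ (Subgroup.mem_zpowers c) i
  · exact Subgroup.zpow_mem _ (Subgroup.inv_mem _ (Subgroup.mem_zpowers c)) i

/-- a 3-cycle in `S_4` -/
def c3 : Equiv.Perm (Fin 4) := Equiv.swap 0 1 * Equiv.swap 1 2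

theorem c3_order : orderOf c3 = 3 := orderOf_eq_prime (by decide) (by decide)

theorem c3_norm : 6 ≤ Nat.card (Subgroup.normalizer ((Subgroup.zpowers c3 : Subgroup (Equiv.Perm (Fin 4))) : Set (Equiv.Perm (Fin 4)))) := by
  apply card_norm_ge
  decide +kernel

/-- a 5-cycle in `A_5` -/
def c5 : alternatingGroup (Fin 5) := ⟨finRotate 5, by rw [Equiv.Perm.mem_alternatingGroup]; decide⟩

theorem c5_order : orderOf c5 = 5 := by
  haveI : Fact (Nat.Prime 5) := ⟨by norm_num⟩
  apply orderOf_eq_prime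
  · apply Subtype.ext
    change (finRotate 5) ^ 5 = 1
    decide
  · intro h
    have := congrArg Subtype.val h
    exact absurd this (by decide)

theorem c5_norm : 10 ≤ Nat.card (Subgroup.normalizer ((Subgroup.zpowers c5 : Subgroup (alternatingGroup (Fin 5))) : Set (alternatingGroup (Fin 5)))) := by
  apply card_norm_ge
  decide +kernel

theorem norm5 : ∀ m : Equiv.Perm (Fin 5), m 4 = 4 → (m * x5.1 * m⁻¹ = 1 ∨ m * x5.1 * m⁻¹ = x5.1 ∨ m * x5.1 * m⁻¹ = y5.1 ∨ m * x5.1 * m⁻¹ = x5.1 * y5.1) ∧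
    (m * y5.1 * m⁻¹ = 1 ∨ m * y5.1 * m⁻¹ = x5.1 ∨ m * y5.1 * m⁻¹ = y5.1 ∨ m * y5.1 * m⁻¹ = x5.1 * y5.1) := by
  decide +kernel

theorem v5_norm : 12 ≤ Nat.card (Subgroup.normalizer ((kp5.V : Subgroup (alternatingGroup (Fin 5))) : Set (alternatingGroup (Fin 5)))) := by
  have h : 12 ≤ Fintype.card {t : alternatingGroup (Fin 5) // t.1 4 = 4} := by decide +kernel
  refine h.trans ?_
  rw [← Nat.card_eq_fintype_card]
  refine Nat.card_le_card_of_injective (fun t => ⟨t.1, ?_⟩) (fun a b hab => Subtype.ext (congrArg (fun z => z.1) hab))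
  obtain ⟨h1, h2⟩ := norm5 t.1.1 t.2
  apply KP.mem_norm
  · rw [KP.mem_V]
    rcases h1 with h | h | h | h
    · left; exact Subtype.ext h
    · right; left; exact Subtype.ext h
    · right; right; left; exact Subtype.ext h
    · right; right; right; exact Subtype.ext h
  · rw [KP.mem_V]
    rcases h2 with h | h | h | h
    · left; exact Subtype.ext h
    · right; left; exact Subtype.ext h
    · right; right; left; exact Subtype.ext h
    · right; right; right; exact Subtype.ext h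

/-- a Sylow 2-subgroup of `S_4` -/
theorem exists_syl_S4 : ∃ Q : Subgroup (Equiv.Perm (Fin 4)), Nat.card Q = 2 ^ 3 := by
  haveI : Fact (Nat.Prime 2) := ⟨Nat.prime_two⟩
  obtain ⟨Q, hQ⟩ := Sylow.exists_subgroup_card_pow_prime (G := Equiv.Perm (Fin 4)) 2 (n := 3) (by
    rw [Nat.card_perm, Nat.card_fin]; decide)
  exact ⟨Q, hQ⟩

/-- subgroups of order `2r` -/
theorem two_r {G : Type*} [Group G] [Finite G] (r : ℕ) [Fact r.Prime] (M : Subgroup G) (hM : Nat.card M = 2 * r) :
    ∃ Q : Subgroup G, Nat.card Q = r ∧ M ≤ Subgroup.normalizer (Q : Set G) := by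
  obtain ⟨c, hc⟩ := exists_prime_orderOf_dvd_card' (G := M) r (by rw [hM]; exact dvd_mul_left _ _)
  have hQ : Nat.card (Subgroup.zpowers c) = r := by rw [Nat.card_zpowers, hc]
  have hidx : (Subgroup.zpowers c).index = 2 := by
    have h2 := Subgroup.card_mul_index (Subgroup.zpowers c)
    rw [hQ, hM, mul_comm 2] at h2
    exact Nat.eq_of_mul_eq_mul_left (Fact.out : r.Prime).pos h2
  have hn := Subgroup.normal_of_index_eq_two hidx
  refine ⟨(Subgroup.zpowers c).map M.subtype, ?_, ?_⟩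
  · rw [Subgroup.card_map_of_injective M.subtype_injective, hQ]
  · intro m hm
    apply Subgroup.mem_normalizer_fintype
    rintro _ ⟨z, hz, rfl⟩
    exact ⟨⟨m, hm⟩ * z * ⟨m, hm⟩⁻¹, hn.conj_mem z hz ⟨m, hm⟩, rfl⟩

variable {F : Type*} [Field F] [Fintype F]

/-- normalizers of proper nontrivial subgroups of `PSL_2(q)` are proper -/
theorem norm_ne_top (h4 : 4 ≤ Fintype.card F) (Q : Subgroup (P2 F)) (h1 : Q ≠ ⊥) (h2 : Q ≠ ⊤) :
    Subgroup.normalizer (Q : Set (P2 F)) ≠ ⊤ := by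
  intro h
  haveI := simple_P2 (F := F) h4
  have hn : Q.Normal := Subgroup.normalizer_eq_top_iff.mp h
  rcases hn.eq_bot_or_eq_top with h | h
  · exact h1 h
  · exact h2 h

/-- the fixed field of a power of the Frobenius -/
def fixF (F : Type*) [Field F] (p e : ℕ) [Fact p.Prime] [CharP F p] : Subfield F where
  carrier := {x | x ^ (p ^ e) = x}
  mul_mem' := by
    intro a b ha hb
    change (a * b) ^ (p ^ e) = a * b
    rw [mul_pow, ha, hb]
  one_mem' := one_pow _
  add_mem' := by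
    intro a b ha hb
    change (a + b) ^ (p ^ e) = a + b
    rw [add_pow_char_pow, ha, hb]
  zero_mem' := by
    change (0 : F) ^ (p ^ e) = 0
    exact zero_pow (pow_ne_zero _ (Fact.out : p.Prime).ne_zero)
  neg_mem' := by
    intro a ha
    change (-a) ^ (p ^ e) = -a
    have h1 : (-a) ^ (p ^ e) + a ^ (p ^ e) = 0 := by
      rw [← add_pow_char_pow, neg_add_cancel]
      exact zero_pow (pow_ne_zero _ (Fact.out : p.Prime).ne_zero)
    rw [show a ^ (p ^ e) = a from ha] at h1
    exact eq_neg_of_add_eq_zero_left h1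
  inv_mem' := by
    intro a ha
    change (a⁻¹) ^ (p ^ e) = a⁻¹
    rw [inv_pow, show a ^ (p ^ e) = a from ha]

theorem mem_fixF (p e : ℕ) [Fact p.Prime] [CharP F p] (x : F) : x ∈ fixF F p e ↔ x ^ (p ^ e) = x := Iff.rfl

theorem card_le_of_fixF (p e : ℕ) (he : 1 ≤ e) [Fact p.Prime] [CharP F p] (h : fixF F p e = ⊤) : Fintype.card F ≤ p ^ e := by
  obtain ⟨g, hg⟩ := IsCyclic.exists_ofOrder_eq_natCard (α := Fˣ)
  have h1 : (g : F) ^ (p ^ e) = g := by
    have : (g : F) ∈ fixF F p e := by rw [h]; trivial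
    exact this
  have hpe : 2 ≤ p ^ e := by
    calc 2 ≤ p := (Fact.out : p.Prime).two_le
      _ = p ^ 1 := (pow_one p).symm
      _ ≤ p ^ e := Nat.pow_le_pow_right (Fact.out : p.Prime).pos he
  have h2 : g ^ (p ^ e - 1) = 1 := by
    apply Units.ext
    have h3 : g ^ (p ^ e - 1) * g = g := by
      rw [← pow_succ]
      have : p ^ e - 1 + 1 = p ^ e := by omega
      rw [this]
      exact Units.ext h1
    rw [mul_eq_right.mp h3]
  have h3 := Nat.le_of_dvd (by omega) (orderOf_dvd_of_pow_eq_one h2)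
  rw [hg, Nat.card_units, Nat.card_eq_fintype_card] at h3
  have : 1 < Fintype.card F := Fintype.one_lt_card
  omega

end Cfsg.Agent.Lib.DkSmall2
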