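import Mathlib
import Cfsg.Agent.Lib.DkSmall2

/-!
# Maximal subgroups of `PSL_2(q)`, `q` odd (helper98)
-/

set_option autoImplicit false
set_option linter.unusedSectionVars false

namespace Cfsg.Agent.Lib.DkOdd

open Cfsg.Agent.Lib Cfsg.Agent.Lib.MobCount Cfsg.Agent.Lib.MobOct Cfsg.Agent.Lib.MobKlein MulAction Matrix
  Cfsg.Agent.Lib.ClProjLine Cfsg.Agent.Lib.DkTorus Cfsg.Agent.Lib.DkSub Cfsg.Agent.Lib.DkMax Cfsg.Agent.Lib.DkSmall
  Cfsg.Agent.Lib.DkQuat Cfsg.Agent.Lib.DkKlein Cfsg.Agent.Lib.DkSubMax Cfsg.Agent.Lib.DkIcos Cfsg.Agent.Lib.DkSmall2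
  Cfsg.Agent.Lib.DkEmb
open scoped LinearAlgebra.Projectivization MatrixGroups

variable {F : Type*} [Field F] [Fintype F]

theorem two_ne (hodd : Odd (Fintype.card F)) : (2 : F) ≠ 0 := SL2Tori.two_ne_zero_of_odd hodd

theorem card_P2_odd (hodd : Odd (Fintype.card F)) : 2 * Nat.card (P2 F) = Fintype.card F * (Fintype.card F ^ 2 - 1) := by
  rw [← card_P2 (F := F) rfl, gcd_odd hodd]

/-- embedding of an abstract isomorphism type in `PGL_2` -/
theorem emb_of_equiv {T : Type*} [Group T] (M : Subgroup (P2 F)) (e : T ≃* M) :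
    ∃ j : T →* PGL(Fin 2, F), Function.Injective j ∧ j.range = M.map (tP F) := by
  refine ⟨((tP F).comp M.subtype).comp e.toMonoidHom, (tP_inj.comp M.subtype_injective).comp e.injective, ?_⟩
  ext x
  constructor
  · rintro ⟨t, rfl⟩
    exact ⟨(e t : P2 F), (e t).2, rfl⟩
  · rintro ⟨m, hm, rfl⟩
    exact ⟨e.symm ⟨m, hm⟩, by simp⟩

/-- a subfield of order `p` -/
theorem exists_prime_sub (p : ℕ) [Fact p.Prime] [CharP F p] : ∃ k : Subfield F, Nat.card k = p := by
  letI := ZMod.algebra F p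
  refine ⟨(algebraMap (ZMod p) F).fieldRange, ?_⟩
  rw [← Nat.card_congr (RingHom.rangeRestrictFieldEquiv (algebraMap (ZMod p) F)).toEquiv, Nat.card_zmod]

theorem sub_eq_top (k : Subfield F) (h : Nat.card k = Fintype.card F) : k = ⊤ := by
  have : (k : Set F) = Set.univ := by
    apply Set.eq_of_subset_of_ncard_le (Set.subset_univ _) _ (Set.toFinite _)
    rw [Set.ncard_univ, Nat.card_eq_fintype_card, ← h]
    rfl
  rw [eq_top_iff]
  intro x _
  have h1 : x ∈ (k : Set F) := by rw [this]; trivial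
  exact h1

/-- small maximal subgroups in the normalizer of a Klein group: `q = p` -/
theorem prime_of_loc (p : ℕ) [Fact p.Prime] [CharP F p] (h5 : 5 ≤ p) (hodd : Odd (Fintype.card F)) (M : Subgroup (P2 F))
    (hM : IsCoatom M) (hle : Nat.card M ≤ 24) {x y : PGL(Fin 2, F)} (h : KP x y) (hx : x ∈ LL F) (hy : y ∈ LL F)
    (hn : M.map (tP F) ≤ Subgroup.normalizer (h.V : Set (PGL(Fin 2, F)))) : Fintype.card F = p := by
  obtain ⟨k, hk⟩ := exists_prime_sub (F := F) p
  obtain ⟨g, hg⟩ := kp_field (two_ne hodd) h hx hy k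
  set R := (Matrix.ProjGenLinGroup.map (n := Fin 2) k.subtype).range with hR
  have hMR : M ≤ cm g R := by
    apply le_cm
    rintro _ ⟨m, hm, rfl⟩
    exact hg m (hn hm)
  have hp2 : 5 ^ 2 ≤ p ^ 2 := Nat.pow_le_pow_left h5 2
  by_cases htop : cm g R = ⊤
  · have h1 : Nat.card (P2 F) ≤ Nat.card R := by
      have h2 := card_cm g R
      rw [htop, Subgroup.card_top] at h2
      rw [h2]
      exact Subgroup.card_le_of_le inf_le_left
    rw [hR, card_pgl_sub, hk] at h1
    have h3 := card_P2_odd hodd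
    obtain ⟨n, hn0, hn⟩ := ClSLn.exists_card_eq_pow (F := F) p
    by_contra hne
    have hn2 : 2 ≤ n := by
      by_contra hlt
      have : n = 1 := by omega
      rw [this, pow_one] at hn
      exact hne hn
    have h4 : p ^ 2 ≤ Fintype.card F := by rw [hn]; exact Nat.pow_le_pow_right (by omega) hn2
    have h6 : 5 * p ≤ Fintype.card F := by
      calc 5 * p ≤ p * p := Nat.mul_le_mul_right _ h5
        _ = p ^ 2 := (sq p).symm
        _ ≤ _ := h4
    have h7 : p ^ 2 ≤ Fintype.card F ^ 2 := Nat.pow_le_pow_left (by omega) 2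
    have h8 : 5 * (p * (p ^ 2 - 1)) ≤ Fintype.card F * (Fintype.card F ^ 2 - 1) := by
      calc 5 * (p * (p ^ 2 - 1)) = (5 * p) * (p ^ 2 - 1) := by ring
        _ ≤ _ := Nat.mul_le_mul h6 (by omega)
    have h9 : 0 < p * (p ^ 2 - 1) := Nat.mul_pos (by omega) (by omega)
    omega
  · exfalso
    have hMeq := eq_of_coatom hM hMR htop
    have h1 : Nat.card (pslMap k.subtype).range ≤ Nat.card M := by
      rw [hMeq, card_cm]
      exact Subgroup.card_le_of_le (le_inf (psl_le_pgl _) (pslMap_mem_LL _))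
    have h2 := card_psl_sub k
    rw [hk] at h2
    have h3 : Nat.gcd 2 (p - 1) ≤ 2 := Nat.le_of_dvd (by norm_num) (Nat.gcd_dvd_left _ _)
    have h4 : 5 * 24 ≤ p * (p ^ 2 - 1) := Nat.mul_le_mul h5 (by omega)
    have h6 : Nat.gcd 2 (p - 1) * Nat.card (pslMap k.subtype).range ≤ 2 * 24 := Nat.mul_le_mul h3 (h1.trans hle)
    omega

theorem sixteen (q : ℕ) (hodd : Odd q) : 16 ∣ q * (q ^ 2 - 1) ↔ (q % 8 = 1 ∨ q % 8 = 7) := by
  have h2 : Nat.Coprime 16 q := by
    have : Nat.Coprime (2 ^ 4) q := Nat.Coprime.pow_left 4 (Nat.coprime_two_left.mpr hodd)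
    exact this
  have h4 : q ^ 2 % 16 = (q % 16) ^ 2 % 16 := by rw [Nat.pow_mod]
  have h1 : 1 ≤ q ^ 2 := Nat.one_le_pow _ _ hodd.pos
  have h6 : q % 2 = 1 := Nat.odd_iff.mp hodd
  have h5 : q % 16 = 1 ∨ q % 16 = 3 ∨ q % 16 = 5 ∨ q % 16 = 7 ∨ q % 16 = 9 ∨ q % 16 = 11 ∨ q % 16 = 13 ∨ q % 16 = 15 := by omega
  constructor
  · intro h
    have h3 := h2.dvd_of_dvd_mul_left h
    rcases h5 with h | h | h | h | h | h | h | h <;> rw [h] at h4 <;> norm_num at h4 <;> omega
  · intro h
    apply Dvd.dvd.mul_left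
    rcases h5 with h | h | h | h | h | h | h | h <;> rw [h] at h4 <;> norm_num at h4 <;> omega

theorem five_dvd (q : ℕ) (hodd : Odd q) (h5 : ¬ 5 ∣ q) (h : 5 ∣ q * (q ^ 2 - 1)) : q % 10 = 1 ∨ q % 10 = 9 := by
  have h1 : 1 ≤ q ^ 2 := Nat.one_le_pow _ _ hodd.pos
  have h6 : q % 2 = 1 := Nat.odd_iff.mp hodd
  have h9 : q ^ 2 % 5 = (q % 5) ^ 2 % 5 := by rw [Nat.pow_mod]
  rcases (Nat.Prime.dvd_mul (by norm_num : Nat.Prime 5)).mp h with h8 | h8
  · exact absurd h8 h5
  · have h10 : q % 5 = 1 ∨ q % 5 = 2 ∨ q % 5 = 3 ∨ q % 5 = 4 := by omega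
    rcases h10 with h | h | h | h <;> rw [h] at h9 <;> norm_num at h9 <;> omega

theorem dvd_five (q : ℕ) (h : q % 10 = 1 ∨ q % 10 = 9) : 5 ∣ q * (q ^ 2 - 1) := by
  have h1 : 1 ≤ q ^ 2 := Nat.one_le_pow _ _ (by omega)
  have h9 : q ^ 2 % 5 = (q % 5) ^ 2 % 5 := by rw [Nat.pow_mod]
  apply Dvd.dvd.mul_left
  have h10 : q % 5 = 1 ∨ q % 5 = 4 := by omega
  rcases h10 with h | h <;> rw [h] at h9 <;> norm_num at h9 <;> omega

/-- the `A_4` case -/
theorem case_A4 (p : ℕ) [Fact p.Prime] [CharP F p] (hodd : Odd (Fintype.card F)) (h5q : 5 ≤ Fintype.card F)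
    (M : Subgroup (P2 F)) (hM : IsCoatom M) (hp : ¬ p ∣ Nat.card M) (h12 : Nat.card M = 12)
    (e : Nonempty (M ≃* alternatingGroup (Fin 4))) :
    Fintype.card F = p ∧ (p % 8 = 3 ∨ p % 8 = 5) ∧ ¬ (p % 10 = 1 ∨ p % 10 = 9) := by
  obtain ⟨e⟩ := e
  have hpp : p.Prime := Fact.out
  have h5 : 5 ≤ p := by
    rw [h12] at hp
    have := hpp.two_le
    by_contra hlt
    have : p = 2 ∨ p = 3 ∨ p = 4 := by omega
    rcases this with rfl | rfl | rfl
    · exact hp (by norm_num)
    · exact hp (by norm_num)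
    · exact absurd hpp (by norm_num)
  obtain ⟨j, hj, hjr⟩ := emb_of_equiv M e.symm
  obtain ⟨x, y, h, hx, hy, hV, hn⟩ := loc_A4 j hj
  rw [hjr] at hV hn
  have hq := prime_of_loc p h5 hodd M hM (by omega) h hx hy hn
  have hcF := card_P2_odd hodd
  rw [hq] at hcF
  have hpo : Odd p := by rw [← hq]; exact hodd
  -- the Klein group in `PSL_2`
  set Q : Subgroup (P2 F) := h.V.comap (tP F) with hQ
  have hQmap : Q.map (tP F) = h.V := by
    rw [hQ, Subgroup.map_comap_eq]
    apply inf_eq_right.mpr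
    intro v hv
    rcases hv with rfl | rfl | rfl | rfl
    · exact one_mem _
    · exact hx
    · exact hy
    · exact Subgroup.mul_mem _ hx hy
  have hQc : Nat.card Q = 2 ^ 2 := by
    rw [← Subgroup.card_map_of_injective tP_inj, hQmap, h.card_V]; norm_num
  have hQn : M ≤ Subgroup.normalizer (Q : Set (P2 F)) := by
    intro m hm
    have h1 := hn ⟨m, hm, rfl⟩
    rw [Subgroup.mem_normalizer_iff] at h1 ⊢
    intro v
    have h2 := h1 (tP F v)
    rw [← map_mul, ← map_inv, ← map_mul] at h2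
    exact h2
  have hbig : 60 ≤ Nat.card (P2 F) := by
    have h1 : 5 ^ 2 ≤ p ^ 2 := Nat.pow_le_pow_left h5 2
    have h2 : 5 * 24 ≤ p * (p ^ 2 - 1) := Nat.mul_le_mul h5 (by omega)
    omega
  have hQt : Subgroup.normalizer (Q : Set (P2 F)) ≠ ⊤ := by
    apply norm_ne_top (by omega)
    · intro hb; rw [hb, Subgroup.card_bot] at hQc; norm_num at hQc
    · intro hb
      rw [hb, Subgroup.card_top] at hQc
      have : Nat.card (P2 F) = 4 := by rw [hQc]; norm_num
      omega
  have hMN : M = Subgroup.normalizer (Q : Set (P2 F)) := eq_of_coatom hM hQn hQt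
  haveI : Fact (Nat.Prime 2) := ⟨Nat.prime_two⟩
  have h8 : ¬ 8 ∣ Nat.card (P2 F) := by
    intro h8
    have h1 := Sylow.prime_pow_dvd_card_normalizer (p := 2) (n := 2) (by exact h8) hQc
    rw [← hMN, h12] at h1
    norm_num at h1
  have hp8 : p % 8 = 3 ∨ p % 8 = 5 := by
    have h1 : ¬ (p % 8 = 1 ∨ p % 8 = 7) := by
      rw [← sixteen p hpo, ← hcF]
      intro h2
      apply h8
      omega
    have h2 : p % 2 = 1 := Nat.odd_iff.mp hpo
    omega
  refine ⟨hq, hp8, ?_⟩
  intro h10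
  obtain ⟨H, ⟨eH⟩⟩ := (Cfsg.Agent.S0804.result (F := F) hq).mpr (dvd_five p h10)
  have hH60 : Nat.card (alternatingGroup (Fin 5)) = 60 := by
    have := nat_card_alternatingGroup (α := Fin 5)
    rw [this]; simp; rfl
  let j5 : alternatingGroup (Fin 5) →* P2 F := H.subtype.comp eH.symm.toMonoidHom
  have hj5 : Function.Injective j5 := H.subtype_injective.comp eH.symm.injective
  have hj5r : j5.range ≠ ⊤ := by
    apply ne_top_of_card
    have h1 : Nat.card j5.range = 60 := by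
      rw [← hH60]; exact Nat.card_congr (MonoidHom.ofInjective hj5).symm.toEquiv
    rw [h1]
    change 60 ≠ Nat.card (P2 F)
    have h2 : 11 ≤ p := by omega
    have h3 : 11 ^ 2 ≤ p ^ 2 := Nat.pow_le_pow_left h2 2
    have h4 : 11 * 120 ≤ p * (p ^ 2 - 1) := Nat.mul_le_mul h2 (by omega)
    omega
  have h4 : 4 ∣ Nat.card (P2 F) := by
    have : Nat.card M ∣ Nat.card (P2 F) := Subgroup.card_subgroup_dvd_card M
    rw [h12] at this
    exact (by norm_num : 4 ∣ 12).trans this
  obtain ⟨c, hc⟩ := h4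
  refine embed_sylow 2 2 M hM Q hQn hQt j5 hj5 hj5r kp5.V hQc (by rw [kp5.card_V]; norm_num)
    (fact_of _ 2 2 c Nat.prime_two (by rw [hc]; norm_num) (by rintro ⟨d, hd⟩; apply h8; exact ⟨d, by rw [hc, hd]; ring⟩))
    (by rw [h12]; exact v5_norm) (by rw [hH60, h12]; norm_num)

/-- the `S_4` case -/
theorem case_S4 (p : ℕ) [Fact p.Prime] [CharP F p] (hodd : Odd (Fintype.card F))
    (M : Subgroup (P2 F)) (hM : IsCoatom M) (hp : ¬ p ∣ Nat.card M) (h24 : Nat.card M = 24)
    (e : Nonempty (M ≃* Equiv.Perm (Fin 4))) :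
    Fintype.card F = p ∧ (p % 8 = 1 ∨ p % 8 = 7) := by
  obtain ⟨e⟩ := e
  have hpp : p.Prime := Fact.out
  have h5 : 5 ≤ p := by
    rw [h24] at hp
    have := hpp.two_le
    by_contra hlt
    have : p = 2 ∨ p = 3 ∨ p = 4 := by omega
    rcases this with rfl | rfl | rfl
    · exact hp (by norm_num)
    · exact hp (by norm_num)
    · exact absurd hpp (by norm_num)
  obtain ⟨j, hj, hjr⟩ := emb_of_equiv M e.symm
  obtain ⟨x, y, h, hx, hy, hV, hn⟩ := loc_S4 j hj
  rw [hjr] at hV hn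
  have hq := prime_of_loc p h5 hodd M hM (by omega) h hx hy hn
  refine ⟨hq, ?_⟩
  have hcF := card_P2_odd hodd
  rw [hq] at hcF
  have hpo : Odd p := by rw [← hq]; exact hodd
  rw [← sixteen p hpo, ← hcF]
  have : Nat.card M ∣ Nat.card (P2 F) := Subgroup.card_subgroup_dvd_card M
  rw [h24] at this
  exact (by norm_num : 16 ∣ 2 * 24).trans (Nat.mul_dvd_mul_left 2 this)

theorem card_A5 : Nat.card (alternatingGroup (Fin 5)) = 60 := by
  have := nat_card_alternatingGroup (α := Fin 5)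
  rw [this]; simp; rfl

/-- roots of `X⁴ - 3X² + 1` are fixed by the square of the Frobenius -/
theorem golden_fix_two (p : ℕ) [Fact p.Prime] [CharP F p] (t : F) (ht : t ^ 4 - 3 * t ^ 2 + 1 = 0) : t ∈ fixF F p 2 := by
  have key : ∀ s : F, s ^ 2 - s - 1 = 0 → s ∈ fixF F p 2 := by
    intro s hs
    rw [mem_fixF]
    have h1 : (s ^ p) ^ 2 - s ^ p - 1 = 0 := by
      have : (s ^ 2 - s - 1) ^ p = 0 := by rw [hs]; exact zero_pow (Fact.out : p.Prime).ne_zero
      rw [sub_pow_char, sub_pow_char, one_pow, ← pow_mul, mul_comm, pow_mul] at this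
      exact this
    have h2 : (s ^ p - s) * (s ^ p + s - 1) = 0 := by linear_combination h1 - hs
    have h3 : p ^ 2 = p * p := sq p
    rw [h3, pow_mul]
    rcases mul_eq_zero.mp h2 with h4 | h4
    · have h5 : s ^ p = s := sub_eq_zero.mp h4
      rw [h5, h5]
    · have h5 : s ^ p = 1 - s := by linear_combination h4
      rw [h5, sub_pow_char, one_pow, h5]; ring
  have h1 : (t ^ 2 - t - 1) * (t ^ 2 + t - 1) = 0 := by linear_combination ht
  rcases mul_eq_zero.mp h1 with h | h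
  · exact key t h
  · have := key (-t) (by linear_combination h)
    have h3 := (fixF F p 2).neg_mem this
    rwa [neg_neg] at h3

theorem golden_fix_one (p : ℕ) [Fact p.Prime] [CharP F p] (hp : p % 10 = 1 ∨ p % 10 = 9) (t : F)
    (ht : t ^ 4 - 3 * t ^ 2 + 1 = 0) : t ∈ fixF F p 1 := by
  obtain ⟨s, hs⟩ := MobPlat.exists_golden (F := ZMod p) (ZMod.card p) (dvd_five p hp)
  letI := ZMod.algebra F p
  set r : F := algebraMap (ZMod p) F s with hr
  have hr2 : r ^ 2 - r - 1 = 0 := by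
    rw [hr, ← map_pow, ← map_sub, ← map_one (algebraMap (ZMod p) F), ← map_sub, hs, map_zero]
  have hrp : r ∈ fixF F p 1 := by
    rw [mem_fixF, pow_one, hr, ← map_pow, ZMod.pow_card]
  have key : ∀ u : F, u ^ 2 - u - 1 = 0 → u ∈ fixF F p 1 := by
    intro u hu
    have h2 : (u - r) * (u + r - 1) = 0 := by linear_combination hu - hr2
    rcases mul_eq_zero.mp h2 with h4 | h4
    · rw [sub_eq_zero.mp h4]; exact hrp
    · have h5 : u = 1 - r := by linear_combination h4
      rw [h5]; exact (fixF F p 1).sub_mem (fixF F p 1).one_mem hrp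
  have h1 : (t ^ 2 - t - 1) * (t ^ 2 + t - 1) = 0 := by linear_combination ht
  rcases mul_eq_zero.mp h1 with h | h
  · exact key t h
  · have := key (-t) (by linear_combination h)
    have h3 := (fixF F p 1).neg_mem this
    rwa [neg_neg] at h3

/-- a maximal `A_5` : every subfield containing the golden ratios is everything -/
theorem icos_top (p : ℕ) [Fact p.Prime] [CharP F p] (hodd : Odd (Fintype.card F)) (hp5 : p ≠ 5)
    (M : Subgroup (P2 F)) (hM : IsCoatom M) (h60 : Nat.card M = 60) (e : M ≃* alternatingGroup (Fin 5))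
    (k : Subfield F) (hk : ∀ t : F, t ^ 4 - 3 * t ^ 2 + 1 = 0 → t ∈ k) : k = ⊤ := by
  have hpp : p.Prime := Fact.out
  obtain ⟨j, hj, hjr⟩ := emb_of_equiv M e.symm
  obtain ⟨g, hg⟩ := icos_field (two_ne hodd) j hj k hk
  rw [hjr] at hg
  set R := (pslMap k.subtype).range with hR
  have hMR : M ≤ cm g R := le_cm hg
  have hRL : R ⊓ LL F = R := inf_eq_left.mpr (pslMap_mem_LL _)
  have hcR := card_psl_sub k
  haveI : Fintype k := Fintype.ofFinite k
  obtain ⟨n, hn0, hn⟩ := ClSLn.exists_card_eq_pow (F := F) p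
  have hpo : Odd p := by
    rw [hn] at hodd
    exact (Nat.odd_pow_iff hn0).mp hodd
  haveI : CharP k p := (RingHom.charP_iff k.subtype k.subtype.injective p).mpr inferInstance
  obtain ⟨m, hm0, hm⟩ := ClSLn.exists_card_eq_pow (F := k) p
  have hko : Odd (Fintype.card k) := by rw [hm]; exact hpo.pow
  have hgk : Nat.gcd 2 (Nat.card k - 1) = 2 := by
    rw [Nat.card_eq_fintype_card]; exact gcd_odd hko
  rw [hgk] at hcR
  by_cases htop : cm g R = ⊤
  · have h1 : Nat.card (P2 F) = Nat.card R := by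
      have h2 := card_cm g R
      rw [htop, Subgroup.card_top, hRL] at h2
      exact h2
    have h3 := card_P2_odd hodd
    rw [h1, hcR] at h3
    apply sub_eq_top
    have hlt : Nat.card k ≤ Fintype.card F := by
      rw [← Nat.card_eq_fintype_card]
      exact Nat.card_le_card_of_injective k.subtype k.subtype.injective
    by_contra hne
    have h4 : Nat.card k < Fintype.card F := lt_of_le_of_ne hlt hne
    have h5 : Nat.card k ^ 2 ≤ Fintype.card F ^ 2 := Nat.pow_le_pow_left hlt 2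
    have h6 : 0 < Fintype.card F ^ 2 - 1 := by
      have h7 : 1 < Fintype.card F := Fintype.one_lt_card
      have : 2 ^ 2 ≤ Fintype.card F ^ 2 := Nat.pow_le_pow_left h7 2
      omega
    have h7 : Nat.card k * (Nat.card k ^ 2 - 1) < Fintype.card F * (Fintype.card F ^ 2 - 1) := by
      calc Nat.card k * (Nat.card k ^ 2 - 1) ≤ Nat.card k * (Fintype.card F ^ 2 - 1) := Nat.mul_le_mul_left _ (by omega)
        _ < _ := Nat.mul_lt_mul_of_pos_right h4 h6
    omega
  · exfalso
    have hMeq := eq_of_coatom hM hMR htop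
    have h1 : Nat.card M = Nat.card R := by rw [hMeq, card_cm, hRL]
    rw [← h1, h60] at hcR
    have h2 : Nat.card k ≤ 5 := by
      by_contra hlt
      push Not at hlt
      have h5 : 6 ^ 2 ≤ Nat.card k ^ 2 := Nat.pow_le_pow_left hlt 2
      have h6 : 6 * 35 ≤ Nat.card k * (Nat.card k ^ 2 - 1) := Nat.mul_le_mul hlt (by omega)
      omega
    have h3 : Nat.card k = 5 := by
      have h4 : Nat.card k = 0 ∨ Nat.card k = 1 ∨ Nat.card k = 2 ∨ Nat.card k = 3 ∨ Nat.card k = 4 ∨ Nat.card k = 5 := by omega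
      rcases h4 with h | h | h | h | h | h <;> rw [h] at hcR <;> first | exact h | (norm_num at hcR)
    apply hp5
    rw [Nat.card_eq_fintype_card, hm] at h3
    have h4 : p ∣ 5 := by rw [← h3]; exact dvd_pow_self p hm0
    exact (Nat.prime_dvd_prime_iff_eq hpp (by norm_num)).mp h4

/-- the `A_5` case -/
theorem case_A5 (p : ℕ) [Fact p.Prime] [CharP F p] (hodd : Odd (Fintype.card F))
    (M : Subgroup (P2 F)) (hM : IsCoatom M) (hp : ¬ p ∣ Nat.card M ∨ p = 3) (h60 : Nat.card M = 60)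
    (e : Nonempty (M ≃* alternatingGroup (Fin 5))) :
    (Fintype.card F % 10 = 1 ∨ Fintype.card F % 10 = 9) ∧
      (Fintype.card F = p ∨ (Fintype.card F = p ^ 2 ∧ (p % 10 = 3 ∨ p % 10 = 7))) := by
  obtain ⟨e⟩ := e
  have hpp : p.Prime := Fact.out
  have hp5 : p ≠ 5 := by
    rintro rfl
    rcases hp with h | h
    · rw [h60] at h; exact h (by norm_num)
    · norm_num at h
  obtain ⟨n, hn0, hn⟩ := ClSLn.exists_card_eq_pow (F := F) p
  have hpo : Odd p := by
    rw [hn] at hodd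
    exact (Nat.odd_pow_iff hn0).mp hodd
  have h5q : ¬ 5 ∣ Fintype.card F := by
    rw [hn]
    intro h
    exact hp5 ((Nat.prime_dvd_prime_iff_eq (by norm_num) hpp).mp ((by norm_num : Nat.Prime 5).dvd_of_dvd_pow h)).symm
  have hq10 : Fintype.card F % 10 = 1 ∨ Fintype.card F % 10 = 9 := by
    apply five_dvd _ hodd h5q
    rw [← card_P2_odd hodd]
    have : Nat.card M ∣ Nat.card (P2 F) := Subgroup.card_subgroup_dvd_card M
    rw [h60] at this
    exact ((by norm_num : 5 ∣ 60).trans this).mul_left 2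
  refine ⟨hq10, ?_⟩
  by_cases h10 : p % 10 = 1 ∨ p % 10 = 9
  · left
    have h1 := icos_top p hodd hp5 M hM h60 e (fixF F p 1) (golden_fix_one p h10)
    have h2 := card_le_of_fixF p 1 le_rfl h1
    rw [pow_one] at h2
    apply le_antisymm h2
    rw [hn]
    calc p = p ^ 1 := (pow_one p).symm
      _ ≤ p ^ n := Nat.pow_le_pow_right hpp.pos (by omega)
  · right
    have h1 := icos_top p hodd hp5 M hM h60 e (fixF F p 2) (golden_fix_two p)
    have h2 := card_le_of_fixF p 2 (by norm_num) h1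
    have h3 : n ≤ 2 := by
      rw [hn] at h2
      exact (Nat.pow_le_pow_iff_right hpp.one_lt).mp h2
    have h4 : n = 1 ∨ n = 2 := by omega
    rcases h4 with rfl | rfl
    · rw [hn, pow_one] at hq10
      exact absurd hq10 h10
    · refine ⟨hn, ?_⟩
      have h6 : p % 2 = 1 := Nat.odd_iff.mp hpo
      have h7 : p % 10 ≠ 5 := by
        intro h
        have : 5 ∣ p := by omega
        exact hp5 ((Nat.prime_dvd_prime_iff_eq (by norm_num) hpp).mp this).symm
      omega

/-- the subfield case -/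
theorem case_sub (hodd : Odd (Fintype.card F)) (M : Subgroup (P2 F)) (hM : IsCoatom M) (g : PGL(Fin 2, F)) (k : Subfield F)
    (m : ℕ) (hm : 2 ≤ m) (hk : Nat.card k ^ m = Fintype.card F)
    (h : (M.map (tP F)).map (MulAut.conj g).toMonoidHom = (pslMap k.subtype).range ∨
      (M.map (tP F)).map (MulAut.conj g).toMonoidHom = (Matrix.ProjGenLinGroup.map (n := Fin 2) k.subtype).range) :
    (∃ (F₀ : Type) (_ : Field F₀) (_ : Fintype F₀), Fintype.card F = Fintype.card F₀ ^ 2 ∧
        Nonempty (M ≃* Matrix.ProjGenLinGroup (Fin 2) F₀)) ∨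
    (∃ (F₀ : Type) (_ : Field F₀) (_ : Fintype F₀) (r : ℕ), r.Prime ∧ Odd r ∧ Fintype.card F = Fintype.card F₀ ^ r ∧
        Nonempty (M ≃* Matrix.ProjectiveSpecialLinearGroup (Fin 2) F₀)) := by
  classical
  have hcF := card_P2_odd hodd
  -- size comparison for proper subfields
  have size : ∀ (k' : Subfield F) (r : ℕ), 2 ≤ r → Nat.card k' ^ r = Fintype.card F →
      3 * (Nat.card k' * (Nat.card k' ^ 2 - 1)) ≤ 2 * Nat.card (P2 F) ∧ 0 < Nat.card k' * (Nat.card k' ^ 2 - 1) := by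
    intro k' r hr hk'
    have h1 : 1 < Nat.card k' := Finite.one_lt_card
    have h2 : Odd (Nat.card k') := by
      rw [← hk'] at hodd
      exact (Nat.odd_pow_iff (by omega)).mp hodd
    have h3 : 3 ≤ Nat.card k' := by obtain ⟨t, ht⟩ := h2; omega
    have h4 : Nat.card k' ^ 2 ≤ Fintype.card F := by rw [← hk']; exact Nat.pow_le_pow_right (by omega) hr
    have h5 : 3 * Nat.card k' ≤ Fintype.card F := by
      calc 3 * Nat.card k' ≤ Nat.card k' * Nat.card k' := Nat.mul_le_mul_right _ h3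
        _ = Nat.card k' ^ 2 := (sq _).symm
        _ ≤ _ := h4
    have h6 : Nat.card k' ^ 2 ≤ Fintype.card F ^ 2 := Nat.pow_le_pow_left (by omega) 2
    have h7 : 3 ^ 2 ≤ Nat.card k' ^ 2 := Nat.pow_le_pow_left h3 2
    refine ⟨?_, Nat.mul_pos (by omega) (by omega)⟩
    rw [hcF]
    calc 3 * (Nat.card k' * (Nat.card k' ^ 2 - 1)) = (3 * Nat.card k') * (Nat.card k' ^ 2 - 1) := by ring
      _ ≤ _ := Nat.mul_le_mul h5 (by omega)
  rcases Nat.even_or_odd m with hme | hmo
  · left
    obtain ⟨k', hkk, hk'⟩ := exists_step k m 2 Nat.prime_two hme.two_dvd hk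
    set R := (Matrix.ProjGenLinGroup.map (n := Fin 2) k'.subtype).range with hR
    have hRL : R ⊓ LL F = R := inf_eq_left.mpr (pgl_le_LL k' 2 (by decide) hk')
    have hMR : M ≤ cm g R := by
      apply le_cm
      rcases h with h | h
      · rw [h]; exact (psl_le_pgl _).trans (pgl_mono hkk)
      · rw [h]; exact pgl_mono hkk
    have hne : cm g R ≠ ⊤ := by
      apply ne_top_of_card
      rw [card_cm, hRL, hR, card_pgl_sub]
      obtain ⟨h1, h2⟩ := size k' 2 le_rfl hk'
      change _ ≠ Nat.card (P2 F)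
      omega
    have hMeq := eq_of_coatom hM hMR hne
    obtain ⟨e⟩ := cm_equiv g R
    obtain ⟨F₀, i1, i2, hc0, ⟨e0⟩⟩ := pgl_small k'
    refine ⟨F₀, i1, i2, by rw [hc0, hk'], ?_⟩
    rw [hMeq]
    exact ⟨e.trans ((MulEquiv.subgroupCongr hRL).trans e0)⟩
  · right
    have hmp : m.minFac.Prime := Nat.minFac_prime (by omega)
    obtain ⟨k', hkk, hk'⟩ := exists_step k m m.minFac hmp (Nat.minFac_dvd m) hk
    have hro : Odd m.minFac := Odd.of_dvd_nat hmo (Nat.minFac_dvd m)
    rcases h with h | h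
    · set R := (pslMap k'.subtype).range with hR
      have hRL : R ⊓ LL F = R := inf_eq_left.mpr (pslMap_mem_LL _)
      have hMR : M ≤ cm g R := by
        apply le_cm
        rw [h]; exact psl_mono hkk
      have hne : cm g R ≠ ⊤ := by
        apply ne_top_of_card
        rw [card_cm, hRL]
        obtain ⟨h1, h2⟩ := size k' _ hmp.two_le hk'
        have h3 : Nat.card R ≤ Nat.card k' * (Nat.card k' ^ 2 - 1) := by
          rw [← card_pgl_sub]
          exact Subgroup.card_le_of_le (psl_le_pgl _)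
        change _ ≠ Nat.card (P2 F)
        omega
      have hMeq := eq_of_coatom hM hMR hne
      obtain ⟨e⟩ := cm_equiv g R
      obtain ⟨F₀, i1, i2, hc0, ⟨e0⟩⟩ := psl_small k'
      refine ⟨F₀, i1, i2, m.minFac, hmp, hro, by rw [hc0, hk'], ?_⟩
      rw [hMeq]
      exact ⟨e.trans ((MulEquiv.subgroupCongr hRL).trans e0)⟩
    · exfalso
      have : Fintype k := Fintype.ofFinite k
      rw [Nat.card_eq_fintype_card] at hk
      have h5 := (Cfsg.Agent.S0805.result (F := F) (K := k) rfl hodd m (by omega) hk).2.mp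
          ⟨M, ⟨((Subgroup.equivMapOfInjective _ _ tP_inj).trans ((Subgroup.equivMapOfInjective _ _
            (MulAut.conj g).injective).trans (MulEquiv.subgroupCongr h))).trans
            (MonoidHom.ofInjective (map_PGL_injective _)).symm⟩⟩
      exact (Nat.not_even_iff_odd.mpr hmo) h5

end Cfsg.Agent.Lib.DkOdd
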