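import Mathlib
import Cfsg.Agent.Lib.DkOdd

/-!
# Maximal subgroups of `PGL_2(q)`, `q` odd (helper98)
-/

set_option autoImplicit false
set_option linter.unusedSectionVars false

namespace Cfsg.Agent.Lib.DkPGL

open Cfsg.Agent.Lib Cfsg.Agent.Lib.MobCount Cfsg.Agent.Lib.MobOct Cfsg.Agent.Lib.MobKlein MulAction Matrix
  Cfsg.Agent.Lib.ClProjLine Cfsg.Agent.Lib.DkTorus Cfsg.Agent.Lib.DkSub Cfsg.Agent.Lib.DkMax Cfsg.Agent.Lib.DkSmall
  Cfsg.Agent.Lib.DkQuat Cfsg.Agent.Lib.DkKlein Cfsg.Agent.Lib.DkSubMax Cfsg.Agent.Lib.DkIcos Cfsg.Agent.Lib.DkSmall2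
  Cfsg.Agent.Lib.DkEmb Cfsg.Agent.Lib.DkOdd
open scoped LinearAlgebra.Projectivization MatrixGroups

variable {F : Type*} [Field F] [Fintype F]

theorem card_PGL : Nat.card (PGL(Fin 2, F)) = Fintype.card F * (Fintype.card F ^ 2 - 1) := card_G2 rfl

theorem card_PGL_LL (hodd : Odd (Fintype.card F)) : Nat.card (PGL(Fin 2, F)) = 2 * Nat.card (LL F) := by
  have h1 := Subgroup.card_mul_index (LL F)
  rw [index_LL_odd hodd] at h1
  omega

theorem LL_ne_top (hodd : Odd (Fintype.card F)) : LL F ≠ ⊤ := by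
  intro h
  have := index_LL_odd hodd
  rw [h, Subgroup.index_top] at this
  omega

/-- a maximal subgroup not containing `L` is not contained in `L` -/
theorem not_le_LL (hodd : Odd (Fintype.card F)) {M : Subgroup (PGL(Fin 2, F))} (hM : IsCoatom M) (hML : ¬ LL F ≤ M) :
    ¬ M ≤ LL F := by
  intro h
  apply hML
  exact (eq_of_coatom hM h (LL_ne_top hodd)).ge

instance instPretransPGL : IsPretransitive (PGL(Fin 2, F)) (ℙ F (Fin 2 → F)) :=
  ⟨fun x y => by
    obtain ⟨s, hs⟩ := exists_smul_eq (P2 F) x y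
    exact ⟨tP F s, by rw [toPGL_smul]; exact hs⟩⟩

theorem card_stab_pgl (x : ℙ F (Fin 2 → F)) :
    Nat.card (stabilizer (PGL(Fin 2, F)) x) = Fintype.card F * (Fintype.card F - 1) := by
  have h1 := Subgroup.card_mul_index (stabilizer (PGL(Fin 2, F)) x)
  have h2 : (stabilizer (PGL(Fin 2, F)) x).index = Fintype.card F + 1 := by
    rw [MulAction.index_stabilizer, MulAction.orbit_eq_univ, Set.ncard_univ, proj_card']
  rw [h2, card_PGL] at h1
  have h3 : Fintype.card F * (Fintype.card F ^ 2 - 1) = (Fintype.card F * (Fintype.card F - 1)) * (Fintype.card F + 1) := by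
    have h4 : 1 ≤ Fintype.card F := Fintype.card_pos
    obtain ⟨n, hn⟩ := Nat.exists_eq_add_of_le' h4
    rw [hn, Nat.add_sub_cancel]
    have : (n + 1) ^ 2 - 1 = n * (n + 2) := by
      have : (n + 1) ^ 2 = n * (n + 2) + 1 := by ring
      omega
    rw [this]; ring
  rw [h3] at h1
  exact Nat.eq_of_mul_eq_mul_right (by omega) h1

/-- the torus data -/
structure TorusData (M T : Subgroup (PGL(Fin 2, F))) : Prop where
  le : T ≤ M
  cyc : IsCyclic T
  cardT : Nat.card T = Fintype.card F - 1 ∨ Nat.card T = Fintype.card F + 1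
  cardM : Nat.card M = 2 * Nat.card T
  sq : ∀ t ∈ M, t ∉ T → t * t = 1

theorem TorusData.dihedral {M T : Subgroup (PGL(Fin 2, F))} (h : TorusData M T) :
    Nonempty (M ≃* DihedralGroup (Nat.card T)) := by
  have h1 : ¬ M ≤ T := by
    intro hle
    have h2 := Subgroup.card_le_of_le hle
    have h3 := h.cardM
    have h4 : 0 < Nat.card T := Nat.card_pos
    omega
  have h2 := (dih_sub h.cyc h.sq h.cardM h.le le_rfl h1).2
  rwa [inf_eq_right.mpr h.le] at h2

theorem torus_case_pgl (p : ℕ) [Fact p.Prime] [CharP F p] (h5 : 5 ≤ Fintype.card F) (M : Subgroup (PGL(Fin 2, F)))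
    (hM : IsCoatom M) (c : PGL(Fin 2, F)) (hc1 : c ≠ 1) (hcp : ¬ p ∣ orderOf c)
    (h : ∀ g ∈ M, g * c * g⁻¹ ∈ Subgroup.zpowers c) : ∃ T, TorusData M T := by
  obtain ⟨T, N, hTN, hT, hcT, hcardT, hcardN, hsq, hnorm⟩ := torus p c hc1 hcp
  have h1 : M ≤ N := fun g hg => hnorm g (h g hg)
  have h2 : N ≠ ⊤ := by
    apply ne_top_of_card
    rw [hcardN, card_PGL]
    have h3 : 5 ^ 2 ≤ Fintype.card F ^ 2 := Nat.pow_le_pow_left h5 2
    have h4 : 24 * Fintype.card F ≤ Fintype.card F * (Fintype.card F ^ 2 - 1) := by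
      rw [mul_comm]; exact Nat.mul_le_mul_left _ (by omega)
    omega
  have h3 := eq_of_coatom hM h1 h2
  subst h3
  exact ⟨T, hTN, hT, hcardT, hcardN, hsq⟩

/-- cyclic and dihedral maximal subgroups -/
theorem cyc_case_pgl (p : ℕ) [Fact p.Prime] [CharP F p] (hp2 : p ≠ 2) (h5 : 5 ≤ Fintype.card F) (M : Subgroup (PGL(Fin 2, F)))
    (hM : IsCoatom M) (C : Subgroup (PGL(Fin 2, F))) (hCM : C ≤ M) (hC : IsCyclic C) (hCp : ¬ p ∣ Nat.card C)
    (hcard : Nat.card M = Nat.card C ∨ Nat.card M = 2 * Nat.card C) :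
    (∃ x : ℙ F (Fin 2 → F), M ≤ stabilizer (PGL(Fin 2, F)) x) ∨ ∃ T, TorusData M T := by
  by_cases hCb : C = ⊥
  · subst hCb
    rw [Subgroup.card_bot] at hcard
    by_cases hMb : M = ⊥
    · left
      obtain ⟨x⟩ : Nonempty (ℙ F (Fin 2 → F)) := ⟨e0 F⟩
      exact ⟨x, by rw [hMb]; exact bot_le⟩
    · have h2 : Nat.card M = 2 := by
        rcases hcard with h | h
        · exact absurd (Subgroup.card_eq_one.mp h) hMb
        · omega
      obtain ⟨t, htM, ht1⟩ := M.bot_or_exists_ne_one.resolve_left hMb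
      haveI : Fact (Nat.Prime 2) := ⟨Nat.prime_two⟩
      have hto : orderOf t = 2 := by
        apply orderOf_eq_prime _ ht1
        have := pow_card_eq_one' (x := (⟨t, htM⟩ : M))
        rw [h2] at this
        exact congrArg Subtype.val this
      have hz : Subgroup.zpowers t = M := by
        apply Subgroup.eq_of_le_of_card_ge
        · rw [Subgroup.zpowers_le]; exact htM
        · rw [h2, Nat.card_zpowers, hto]
      right
      refine torus_case_pgl p h5 M hM t ht1 ?_ ?_
      · rw [hto]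
        intro h
        exact hp2 ((Nat.prime_dvd_prime_iff_eq Fact.out Nat.prime_two).mp h)
      · intro g hg
        rw [← hz] at hg
        obtain ⟨n, rfl⟩ := hg
        refine ⟨1, ?_⟩
        change t ^ (1 : ℤ) = t ^ n * t * (t ^ n)⁻¹
        rw [_root_.zpow_one, (Commute.refl t).zpow_left n |>.eq, mul_inv_cancel_right]
  · right
    obtain ⟨c, hc⟩ := hC.exists_generator
    have hcC : Subgroup.zpowers (c : PGL(Fin 2, F)) = C := by
      apply le_antisymm
      · rw [Subgroup.zpowers_le]; exact c.2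
      · intro x hx
        obtain ⟨n, hn⟩ := hc ⟨x, hx⟩
        exact ⟨n, congrArg Subtype.val hn⟩
    refine torus_case_pgl p h5 M hM c ?_ ?_ ?_
    · intro e
      apply hCb
      rw [← hcC, e, Subgroup.zpowers_one_eq_bot]
    · rw [← Nat.card_zpowers, hcC]; exact hCp
    · intro g hg
      rw [hcC]
      have hidx : (C.subgroupOf M).index ≤ 2 := by
        have h2 := Subgroup.card_mul_index (C.subgroupOf M)
        rw [Nat.card_congr (Subgroup.subgroupOfEquivOfLe hCM).toEquiv] at h2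
        have h3 : 0 < Nat.card C := Nat.card_pos
        by_contra hlt
        push Not at hlt
        have h5 : Nat.card C * 3 ≤ Nat.card C * (C.subgroupOf M).index := Nat.mul_le_mul_left _ hlt
        rcases hcard with h | h <;> omega
      have hn : (C.subgroupOf M).Normal := by
        have h0 : (C.subgroupOf M).index ≠ 0 := Subgroup.FiniteIndex.index_ne_zero
        have h5 : (C.subgroupOf M).index = 1 ∨ (C.subgroupOf M).index = 2 := by omega
        rcases h5 with h | h
        · rw [Subgroup.index_eq_one] at h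
          rw [h]; infer_instance
        · exact Subgroup.normal_of_index_eq_two h
      have := hn.conj_mem ⟨c, hCM c.2⟩ c.2 ⟨g, hg⟩
      exact this

theorem hom_of_equiv {T : Type*} [Group T] (M : Subgroup (PGL(Fin 2, F))) (e : T ≃* M) :
    ∃ j : T →* PGL(Fin 2, F), Function.Injective j ∧ j.range = M := by
  refine ⟨M.subtype.comp e.toMonoidHom, M.subtype_injective.comp e.injective, ?_⟩
  ext x
  constructor
  · rintro ⟨t, rfl⟩
    exact (e t).2
  · intro hx
    exact ⟨e.symm ⟨x, hx⟩, by simp⟩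

/-- conjugate into `L` -/
theorem le_LL_of_conj {M : Subgroup (PGL(Fin 2, F))} {g : PGL(Fin 2, F)}
    (h : M.map (MulAut.conj g).toMonoidHom ≤ LL F) : M ≤ LL F := by
  intro m hm
  have h1 : g * m * g⁻¹ ∈ LL F := h ⟨m, hm, rfl⟩
  have h2 := LL_normal.conj_mem _ h1 g⁻¹
  have h3 : g⁻¹ * (g * m * g⁻¹) * g⁻¹⁻¹ = m := by group
  rwa [h3] at h2

/-- the `S_4` case -/
theorem S4_case (p : ℕ) [Fact p.Prime] [CharP F p] (hodd : Odd (Fintype.card F)) (M : Subgroup (PGL(Fin 2, F)))
    (hM : IsCoatom M) (hML : ¬ LL F ≤ M) (hp : ¬ p ∣ Nat.card M) (h24 : Nat.card M = 24)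
    (e : Nonempty (M ≃* Equiv.Perm (Fin 4))) :
    Fintype.card F = p ∧ (p % 8 = 3 ∨ p % 8 = 5) := by
  obtain ⟨e⟩ := e
  have hpp : p.Prime := Fact.out
  have h5 : 5 ≤ p := by
    rw [h24] at hp
    have := hpp.two_le
    by_contra hlt
    have : p = 2 ∨ p = 3 ∨ p = 4 := by omega
    rcases this with rfl | rfl | rfl
    · exact hp (by norm_num)
    · exact hp (by norm_num)
    · exact absurd hpp (by norm_num)
  obtain ⟨j, hj, hjr⟩ := hom_of_equiv M e.symm
  obtain ⟨x, y, h, hx, hy, hV, hn⟩ := loc_S4 j hj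
  rw [hjr] at hV hn
  have hp2 : 5 ^ 2 ≤ p ^ 2 := Nat.pow_le_pow_left h5 2
  obtain ⟨n, hn0, hcard⟩ := ClSLn.exists_card_eq_pow (F := F) p
  have hpq : p ≤ Fintype.card F := by
    rw [hcard]
    calc p = p ^ 1 := (pow_one p).symm
      _ ≤ p ^ n := Nat.pow_le_pow_right (by omega) (by omega)
  -- `q = p`
  have hq : Fintype.card F = p := by
    obtain ⟨k, hk⟩ := exists_prime_sub (F := F) p
    obtain ⟨g, hg⟩ := kp_field (two_ne hodd) h hx hy k
    set R := (Matrix.ProjGenLinGroup.map (n := Fin 2) k.subtype).range with hR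
    have hMR : M.map (MulAut.conj g).toMonoidHom ≤ R := by
      rintro _ ⟨m, hm, rfl⟩
      exact hg m (hn hm)
    have hMg := coatom_conj hM (MulAut.conj g)
    have hcM : Nat.card (M.map (MulAut.conj g).toMonoidHom) = 24 := by
      rw [Subgroup.card_map_of_injective (MulAut.conj g).injective, h24]
    have hcR : Nat.card R = p * (p ^ 2 - 1) := by rw [hR, card_pgl_sub, hk]
    have h120 : 5 * 24 ≤ p * (p ^ 2 - 1) := Nat.mul_le_mul h5 (by omega)
    by_cases htop : R = ⊤
    · rw [htop, Subgroup.card_top, card_PGL] at hcR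
      by_contra hne
      have hlt : p < Fintype.card F := lt_of_le_of_ne hpq (Ne.symm hne)
      have h1 : p ^ 2 ≤ Fintype.card F ^ 2 := Nat.pow_le_pow_left hlt.le 2
      have h2 : p * (p ^ 2 - 1) < Fintype.card F * (Fintype.card F ^ 2 - 1) := by
        calc p * (p ^ 2 - 1) ≤ p * (Fintype.card F ^ 2 - 1) := Nat.mul_le_mul_left _ (by omega)
          _ < _ := Nat.mul_lt_mul_of_pos_right hlt (by omega)
      omega
    · exfalso
      have h1 := eq_of_coatom hMg hMR htop
      rw [← h1, hcM] at hcR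
      omega
  refine ⟨hq, ?_⟩
  have hpo : Odd p := by rw [← hq]; exact hodd
  by_contra h8
  have h8' : p % 8 = 1 ∨ p % 8 = 7 := by
    have := Nat.odd_iff.mp hpo
    omega
  -- `S_4` inside `L`
  obtain ⟨H, ⟨eH⟩⟩ := (Cfsg.Agent.S0803.result (F := F) hq).mpr (by
    have h4 : p ^ 2 % 16 = (p % 16) ^ 2 % 16 := by rw [Nat.pow_mod]
    have h6 : p % 16 = 1 ∨ p % 16 = 7 ∨ p % 16 = 9 ∨ p % 16 = 15 := by omega
    rcases h6 with h | h | h | h <;> rw [h] at h4 <;> norm_num at h4 <;> exact h4)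
  have eH' : Equiv.Perm (Fin 4) ≃* H := eH.symm
  have hjH' : Function.Injective (((tP F).comp H.subtype).comp eH'.toMonoidHom) :=
    (tP_inj.comp H.subtype_injective).comp eH'.injective
  obtain ⟨x', y', h', hx', hy', hV', hn'⟩ := loc_S4 _ hjH'
  obtain ⟨g, hg1, hg2⟩ := kp_conj (two_ne hodd) h' h hx' hy' hx hy
  set φ := (((tP F).comp H.subtype).comp eH'.toMonoidHom) with hφ
  have hcφ : Nat.card (φ.range.map (MulAut.conj g).toMonoidHom) = 24 := by
    rw [Subgroup.card_map_of_injective (MulAut.conj g).injective, ← Nat.card_congr (MonoidHom.ofInjective hjH').toEquiv,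
      Nat.card_perm, Nat.card_fin]
    rfl
  have hle : φ.range.map (MulAut.conj g).toMonoidHom ≤ Subgroup.normalizer (h.V : Set (PGL(Fin 2, F))) := by
    rintro _ ⟨m, hm, rfl⟩
    obtain ⟨h1, h3⟩ := h'.norm_x (hn' hm)
    have hxy : g * (x' * y') * g⁻¹ = x * y := by rw [← hg1, ← hg2]; group
    apply h.mem_norm
    · change (g * m * g⁻¹) * x * (g * m * g⁻¹)⁻¹ ∈ h.V
      have e1 : (g * m * g⁻¹) * x * (g * m * g⁻¹)⁻¹ = g * (m * x' * m⁻¹) * g⁻¹ := by rw [← hg1]; group
      rw [e1]
      rcases h1 with h1 | h1 | h1 <;> rw [h1]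
      · rw [hg1]; exact Or.inr (Or.inl rfl)
      · rw [hg2]; exact Or.inr (Or.inr (Or.inl rfl))
      · rw [hxy]; exact Or.inr (Or.inr (Or.inr rfl))
    · change (g * m * g⁻¹) * y * (g * m * g⁻¹)⁻¹ ∈ h.V
      have e1 : (g * m * g⁻¹) * y * (g * m * g⁻¹)⁻¹ = g * (m * y' * m⁻¹) * g⁻¹ := by rw [← hg2]; group
      rw [e1]
      rcases h3 with h3 | h3 | h3 <;> rw [h3]
      · rw [hg1]; exact Or.inr (Or.inl rfl)
      · rw [hg2]; exact Or.inr (Or.inr (Or.inl rfl))
      · rw [hxy]; exact Or.inr (Or.inr (Or.inr rfl))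
  -- the normalizer is proper
  have hNt : Subgroup.normalizer (h.V : Set (PGL(Fin 2, F))) ≠ ⊤ := by
    intro htop
    obtain ⟨k, hk⟩ := exists_prime_sub (F := F) p
    -- the normalizer embeds in the normalizer of a Klein group, permuting three involutions
    haveI hs : IsSimpleGroup (P2 F) := simple_P2 (by omega)
    have hnorm : (h.V.comap (tP F)).Normal := by
      haveI : h.V.Normal := Subgroup.normalizer_eq_top_iff.mp htop
      infer_instance
    have hmap : (h.V.comap (tP F)).map (tP F) = h.V := by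
      rw [Subgroup.map_comap_eq]
      apply inf_eq_right.mpr
      intro v hv
      rcases hv with rfl | rfl | rfl | rfl
      · exact one_mem _
      · exact hx
      · exact hy
      · exact Subgroup.mul_mem _ hx hy
    have hc4 : Nat.card (h.V.comap (tP F)) = 4 := by
      rw [← Subgroup.card_map_of_injective tP_inj, hmap, h.card_V]
    rcases hnorm.eq_bot_or_eq_top with hb | hb
    · rw [hb, Subgroup.card_bot] at hc4
      exact absurd hc4 (by norm_num)
    · rw [hb, Subgroup.card_top] at hc4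
      have h1 := card_P2_odd hodd
      have h2 : 2 * 4 = Fintype.card F * (Fintype.card F ^ 2 - 1) := by rw [← h1]; exact congrArg _ hc4.symm
      rw [hq] at h2
      have h120 : 5 * 24 ≤ p * (p ^ 2 - 1) := Nat.mul_le_mul h5 (by omega)
      omega
  have hMN := eq_of_coatom hM hn hNt
  rw [← hMN] at hle
  have hEq := Subgroup.eq_of_le_of_card_ge hle (by rw [h24, hcφ])
  apply not_le_LL hodd hM hML
  rw [← hEq]
  rintro _ ⟨m, ⟨t, rfl⟩, rfl⟩
  exact LL_normal.conj_mem _ ⟨_, rfl⟩ g

/-- **maximal subgroups of `PGL_2(q)` not containing `L`**, `q > 3` odd -/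
theorem pgl_max (p : ℕ) [Fact p.Prime] [CharP F p] (hodd : Odd (Fintype.card F)) (h3 : 3 < Fintype.card F)
    (M : Subgroup (PGL(Fin 2, F))) (hM : IsCoatom M) (hML : ¬ LL F ≤ M) :
    (∃ x : ℙ F (Fin 2 → F), M = stabilizer (PGL(Fin 2, F)) x) ∨
    (∃ T, TorusData M T) ∨
    (Fintype.card F = p ∧ (p % 8 = 3 ∨ p % 8 = 5) ∧ Nonempty (M ≃* Equiv.Perm (Fin 4))) ∨
    (∃ (g : PGL(Fin 2, F)) (k : Subfield F) (r : ℕ), r.Prime ∧ Odd r ∧ Nat.card k ^ r = Fintype.card F ∧
      M.map (MulAut.conj g).toMonoidHom = (Matrix.ProjGenLinGroup.map (n := Fin 2) k.subtype).range) := by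
  have hpp : p.Prime := Fact.out
  have h5 : 5 ≤ Fintype.card F := by obtain ⟨t, ht⟩ := hodd; omega
  have hnLL := not_le_LL hodd hM hML
  obtain ⟨n, hn0, hcard⟩ := ClSLn.exists_card_eq_pow (F := F) p
  have hp2 : p ≠ 2 := by
    rintro rfl
    rw [hcard] at hodd
    exact absurd ((Nat.odd_pow_iff hn0).mp hodd) (by decide)
  have hstab : ∀ x : ℙ F (Fin 2 → F), M ≤ stabilizer (PGL(Fin 2, F)) x → M = stabilizer (PGL(Fin 2, F)) x := by
    intro x hx
    apply eq_of_coatom hM hx
    apply ne_top_of_card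
    rw [card_stab_pgl, card_PGL]
    have h6 : Fintype.card F - 1 < Fintype.card F ^ 2 - 1 := by
      have : Fintype.card F * 5 ≤ Fintype.card F ^ 2 := by rw [sq]; exact Nat.mul_le_mul_left _ h5
      omega
    exact (Nat.mul_lt_mul_of_pos_left h6 (by omega)).ne
  rcases dickson p M.subtype M.subtype_injective with ⟨h1, h2⟩ | ⟨C, hC, hpC, hcard, ht, hD⟩ | ⟨hp, h12, ⟨e⟩⟩ | ⟨hp, h24, e⟩ |
    ⟨_, h60, hs⟩ | ⟨_, x, hx⟩ | ⟨g, k, h⟩
  · rcases cyc_case_pgl p hp2 h5 M hM M le_rfl h2 h1 (Or.inl rfl) with ⟨x, hx⟩ | h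
    · left; exact ⟨x, hstab x hx⟩
    · right; left; exact h
  · have hcC : Nat.card (C.map M.subtype) = Nat.card C := Subgroup.card_map_of_injective M.subtype_injective
    rcases cyc_case_pgl p hp2 h5 M hM (C.map M.subtype) (by rintro _ ⟨c, _, rfl⟩; exact c.2)
      ((Subgroup.equivMapOfInjective C _ M.subtype_injective).isCyclic.mp hC) (by rw [hcC]; exact hpC)
      (Or.inr (by rw [hcC]; exact hcard)) with ⟨x, hx⟩ | h
    · left; exact ⟨x, hstab x hx⟩
    · right; left; exact h
  · exfalso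
    obtain ⟨j, hj, hjr⟩ := hom_of_equiv M e.symm
    apply hnLL
    rw [← hjr]
    exact alt_le_LL j
  · right; right; left
    obtain ⟨a, b⟩ := S4_case p hodd M hM hML hp h24 e
    exact ⟨a, b, e⟩
  · exfalso
    have h1 : ((LL F).subgroupOf M).index ∣ (LL F).index := Subgroup.relIndex_dvd_index_of_normal _ _
    rw [index_LL_odd hodd] at h1
    have h2 : ((LL F).subgroupOf M).Normal := inferInstance
    rcases h2.eq_bot_or_eq_top with h | h
    · rw [h, Subgroup.index_bot, h60] at h1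
      exact absurd h1 (by norm_num)
    · exact hnLL (Subgroup.subgroupOf_eq_top.mp h)
  · left
    exact ⟨x, hstab x (fun m hm => hx ⟨m, hm⟩)⟩
  · rw [Subgroup.range_subtype] at h
    rcases h with h | h
    · exact absurd (le_LL_of_conj (by rw [h]; exact pslMap_mem_LL _)) hnLL
    · right; right; right
      haveI : Fintype k := Fintype.ofFinite k
      have hck : Fintype.card k = Nat.card k := Nat.card_eq_fintype_card.symm
      have hfr : Nat.card k ^ Module.finrank k F = Fintype.card F := by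
        rw [Nat.card_eq_fintype_card]
        exact (Module.card_eq_pow_finrank (K := k) (V := F)).symm
      set m := Module.finrank k F with hm
      have hm0 : m ≠ 0 := by
        intro h0
        rw [h0, pow_zero] at hfr
        omega
      have hm1 : m ≠ 1 := by
        intro h1
        rw [h1, pow_one] at hfr
        have hk := sub_eq_top k hfr
        apply (coatom_conj hM (MulAut.conj g)).1
        rw [h, eq_top_iff]
        intro y _
        obtain ⟨A, rfl⟩ := Matrix.ProjGenLinGroup.mk_surjective y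
        have hsurj : Function.Surjective k.subtype := fun a => ⟨⟨a, by rw [hk]; trivial⟩, rfl⟩
        let τ : k ≃+* F := RingEquiv.ofBijective k.subtype ⟨k.subtype.injective, hsurj⟩
        refine ⟨Matrix.ProjGenLinGroup.mk (Matrix.GeneralLinearGroup.map τ.symm.toRingHom A), ?_⟩
        rw [Matrix.ProjGenLinGroup.map_mk]
        congr 1
        apply Units.ext
        ext i j
        change τ (τ.symm (A.1 i j)) = A.1 i j
        exact τ.apply_symm_apply _
      have hmo : Odd m := by
        by_contra hne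
        exact hnLL (le_LL_of_conj (g := g) (by rw [h]; exact pgl_le_LL k m (Nat.not_odd_iff_even.mp hne) hfr))
      have hmp : m.minFac.Prime := Nat.minFac_prime hm1
      obtain ⟨k', hkk, hk'⟩ := exists_step k m m.minFac hmp (Nat.minFac_dvd m) hfr
      have hro : Odd m.minFac := Odd.of_dvd_nat hmo (Nat.minFac_dvd m)
      refine ⟨g, k', m.minFac, hmp, hro, hk', ?_⟩
      apply eq_of_coatom (coatom_conj hM (MulAut.conj g))
      · rw [h]; exact pgl_mono hkk
      · apply ne_top_of_card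
        rw [card_pgl_sub, card_PGL]
        have h1 : 1 < Nat.card k' := Finite.one_lt_card
        have h2 : Nat.card k' < Fintype.card F := by
          rw [← hk']
          calc Nat.card k' = Nat.card k' ^ 1 := (pow_one _).symm
            _ < _ := Nat.pow_lt_pow_right h1 hmp.one_lt
        have h4 : Nat.card k' ^ 2 ≤ Fintype.card F ^ 2 := Nat.pow_le_pow_left h2.le 2
        have h6 : 5 ^ 2 ≤ Fintype.card F ^ 2 := Nat.pow_le_pow_left h5 2
        have h7 : Nat.card k' * (Nat.card k' ^ 2 - 1) < Fintype.card F * (Fintype.card F ^ 2 - 1) := by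
          calc Nat.card k' * (Nat.card k' ^ 2 - 1) ≤ Nat.card k' * (Fintype.card F ^ 2 - 1) :=
                Nat.mul_le_mul_left _ (by omega)
            _ < _ := Nat.mul_lt_mul_of_pos_right h2 (by omega)
        omega

end Cfsg.Agent.Lib.DkPGL
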