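import Cfsg.Agent.Lib.E6Fi22Irr
import Cfsg.Agent.Lib.E6Iso
import Cfsg.Agent.Lib.E6F4C
set_option autoImplicit false
set_option linter.unusedSectionVars false
set_option linter.unusedVariables false
set_option linter.style.haveILetI false

/-!
The Hermitian form on the 27-dimensional module preserved by `2E6(2)`, and lifts of elements of `2E6(2)`.
-/

namespace Cfsg.Agent.Lib.E6O
open Cfsg.Lie Cfsg.Agent.Lib.E6Pair Cfsg.Agent.Lib.F4Mat Cfsg.Agent.Lib.TwTab Cfsg.Agent.Lib.ChevRel Cfsg.Agent.Lib.E6F4A Cfsg.Agent.Lib.E6Fi22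
open Cfsg.Agent.Lib.E6Rep (dec cod Em X T D en)
open scoped MatrixGroups Matrix

universe u

/-- the duality on the codes of the weights -/
def pl (n : ℕ) : ℕ := [9, 12, 2, 7, 6, 19, 4, 3, 20, 0, 14, 13, 1, 11, 10, 15, 21, 24, 18, 5, 8, 16, 26, 25, 17, 23, 22].getD n 0

theorem pl_lt : ∀ n < 27, pl n < 27 := by decide
theorem pl_pl : ∀ n < 27, pl (pl n) = n := by decide

/-- the duality on weights -/
def pii (i : I27) : I27 := dec (pl (cod i))

theorem cod_pii (i : I27) : cod (pii i) = pl (cod i) := E6Rep.cod_dec _ (pl_lt _ (E6Rep.cod_lt i))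

theorem pii_pii (i : I27) : pii (pii i) = i := by
  unfold pii
  rw [E6Rep.cod_dec _ (pl_lt _ (E6Rep.cod_lt i)), pl_pl _ (E6Rep.cod_lt i), E6Rep.dec_cod]

/-- the duality as an equivalence -/
def pe : I27 ≃ I27 := ⟨pii, pii, pii_pii, pii_pii⟩

section
variable {K : Type u} [Field K]

/-- the Hermitian form -/
def hf (u v : I27 → K) : K := ∑ i, u i * v (pii i) ^ 2

theorem hf_add_left (u u' v : I27 → K) : hf (u + u') v = hf u v + hf u' v := by
  unfold hf
  rw [← Finset.sum_add_distrib]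
  exact Finset.sum_congr rfl fun i _ => by rw [Pi.add_apply]; ring

theorem hf_smul_left (c : K) (u v : I27 → K) : hf (c • u) v = c * hf u v := by
  unfold hf
  rw [Finset.mul_sum]
  exact Finset.sum_congr rfl fun i _ => by rw [Pi.smul_apply, smul_eq_mul]; ring

theorem hf_smul_right (c : K) (u v : I27 → K) : hf u (c • v) = c ^ 2 * hf u v := by
  unfold hf
  rw [Finset.mul_sum]
  exact Finset.sum_congr rfl fun i _ => by rw [Pi.smul_apply, smul_eq_mul]; ring

/-- non-degeneracy -/
theorem hf_single_left (i : I27) (v : I27 → K) : hf (Pi.single i 1) v = v (pii i) ^ 2 := by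
  unfold hf
  rw [Finset.sum_eq_single i]
  · rw [Pi.single_eq_same, one_mul]
  · intro j _ hj
    rw [Pi.single_eq_of_ne hj, zero_mul]
  · intro h; exact absurd (Finset.mem_univ i) h

variable [CharP K 2]

theorem hf_add_right (u v v' : I27 → K) : hf u (v + v') = hf u v + hf u v' := by
  unfold hf
  rw [← Finset.sum_add_distrib]
  exact Finset.sum_congr rfl fun i _ => by rw [Pi.add_apply, CharTwo.add_sq]; ring

/-- entries of the root elements -/
theorem Em_entry {r : ℕ} (hr : r < 72) (i j : I27) : Em K r i j = if (en r (cod j)).natAbs = cod i + 1 then 1 else 0 := by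
  have hE : Em K r i j = E6Rep.bas K (en r (cod j)) i := by
    rw [Em, if_pos hr]
    rfl
  rw [hE, bas_eq (E6Rep.ok_en hr (E6Rep.cod_lt j))]

/-- the check of duality of two root elements -/
def dualOk (r s : ℕ) : Bool := Nat.blt r 72 && (Nat.blt s 72 && ((List.range 27).all fun a => (List.range 27).all fun b =>
  decide ((en r b).natAbs = a + 1) == decide ((en s (pl a)).natAbs = pl b + 1)))

theorem dual_entry {r s : ℕ} (h : dualOk r s = true) (i j : I27) : Em K r i j = Em K s (pii j) (pii i) := by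
  unfold dualOk at h
  rw [Bool.and_eq_true, Bool.and_eq_true] at h
  obtain ⟨h1, h2, h3⟩ := h
  rw [Em_entry (Nat.le_of_ble_eq_true h1), Em_entry (Nat.le_of_ble_eq_true h2), cod_pii, cod_pii]
  rw [List.all_eq_true] at h3
  have h4 := h3 _ (List.mem_range.mpr (E6Rep.cod_lt i))
  rw [List.all_eq_true] at h4
  have h5 := h4 _ (List.mem_range.mpr (E6Rep.cod_lt j))
  rw [beq_iff_eq, decide_eq_decide] at h5
  by_cases h6 : (en r (cod j)).natAbs = cod i + 1
  · rw [if_pos h6, if_pos (h5.1 h6)]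
  · rw [if_neg h6, if_neg (fun h7 => h6 (h5.2 h7))]

theorem Em_01 {r : ℕ} (hr : r < 72) (i j : I27) : Em K r i j ^ 2 = Em K r i j := by
  rw [Em_entry hr]; split_ifs <;> simp

theorem sum_sq {ι : Type*} (s : Finset ι) (f : ι → K) : (∑ i ∈ s, f i) ^ 2 = ∑ i ∈ s, f i ^ 2 := by
  classical
  induction s using Finset.induction_on with
  | empty => simp
  | insert a s ha ih => rw [Finset.sum_insert ha, Finset.sum_insert ha, CharTwo.add_sq, ih]

theorem hf_Em {r s : ℕ} (h : dualOk r s = true) (u v : I27 → K) : hf (Em K r *ᵥ u) v = hf u (Em K s *ᵥ v) := by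
  have hs : s < 72 := by
    unfold dualOk at h
    rw [Bool.and_eq_true, Bool.and_eq_true] at h
    exact Nat.le_of_ble_eq_true h.2.1
  unfold hf
  have e1 : ∀ i, (Em K r *ᵥ u) i * v (pii i) ^ 2 = ∑ j, Em K s (pii j) (pii i) * u j * v (pii i) ^ 2 := by
    intro i
    rw [Matrix.mulVec, dotProduct, Finset.sum_mul]
    exact Finset.sum_congr rfl fun j _ => by rw [dual_entry h]
  have e2 : ∀ j, u j * (Em K s *ᵥ v) (pii j) ^ 2 = ∑ i, Em K s (pii j) (pii i) * u j * v (pii i) ^ 2 := by
    intro j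
    rw [Matrix.mulVec, dotProduct, sum_sq, Finset.mul_sum, ← Equiv.sum_comp pe]
    refine Finset.sum_congr rfl fun i _ => ?_
    change u j * (Em K s (pii j) (pii i) * v (pii i)) ^ 2 = _
    rw [mul_pow, Em_01 hs]
    ring
  rw [Finset.sum_congr rfl fun i _ => e1 i, Finset.sum_congr rfl fun i _ => e2 i, Finset.sum_comm]

theorem hf_X {r s : ℕ} (h : dualOk r s = true) {t : K} (ht : t ^ 4 = t) (u v : I27 → K) :
    hf ((X K r t : Matrix I27 I27 K) *ᵥ u) v = hf u ((X K s (t ^ 2) : Matrix I27 I27 K) *ᵥ v) := by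
  rw [E6Rep.X_mulVec, E6Rep.X_mulVec, hf_add_left, hf_add_right, hf_smul_left, hf_smul_right, hf_Em h]
  have : (t ^ 2) ^ 2 = t := by rw [← pow_mul]; exact ht
  rw [this]

/-- isometries of the cubic and the Hermitian form -/
def Pres (M : GL I27 K) : Prop := (∀ v, T ((M : Matrix I27 I27 K) *ᵥ v) = T v) ∧
  ∀ u v, hf ((M : Matrix I27 I27 K) *ᵥ u) ((M : Matrix I27 I27 K) *ᵥ v) = hf u v

theorem Pres.one : Pres (1 : GL I27 K) := by
  constructor
  · intro v; rw [Units.val_one, Matrix.one_mulVec]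
  · intro u v; rw [Units.val_one, Matrix.one_mulVec, Matrix.one_mulVec]

theorem Pres.mul {M N : GL I27 K} (hM : Pres M) (hN : Pres N) : Pres (M * N) := by
  constructor
  · intro v
    rw [Units.val_mul, ← Matrix.mulVec_mulVec, hM.1, hN.1]
  · intro u v
    rw [Units.val_mul, ← Matrix.mulVec_mulVec, ← Matrix.mulVec_mulVec, hM.2, hN.2]

theorem Pres.inv {M : GL I27 K} (hM : Pres M) : Pres M⁻¹ := by
  have h : ∀ v, (M : Matrix I27 I27 K) *ᵥ ((M⁻¹ : GL I27 K) : Matrix I27 I27 K) *ᵥ v = v := by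
    intro v
    rw [Matrix.mulVec_mulVec, ← Units.val_mul, mul_inv_cancel, Units.val_one, Matrix.one_mulVec]
  constructor
  · intro v
    rw [← hM.1, h]
  · intro u v
    rw [← hM.2, h, h]

/-- the isometry group -/
def PG (K : Type u) [Field K] [CharP K 2] : Subgroup (GL I27 K) where
  carrier := {M | Pres M}
  one_mem' := Pres.one
  mul_mem' := Pres.mul
  inv_mem' := Pres.inv

variable (h3 : ∀ c : K, c ≠ 0 → c ^ 3 = 1)
include h3

omit [CharP K 2] in
theorem pow4 (t : K) : t ^ 4 = t := by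
  by_cases h : t = 0
  · subst h; simp
  · rw [pow_succ, h3 t h, one_mul]

theorem dual8 : (dualOk 46 46 && dualOk 25 25 && dualOk 39 39 && dualOk 32 32 && dualOk 56 36 && dualOk 36 56 && dualOk 15 35 &&
    dualOk 35 15 && dualOk 42 37 && dualOk 37 42 && dualOk 29 34 && dualOk 34 29) = true := by
  decide +kernel

omit [CharP K 2] h3 in
/-- commuting root elements -/
theorem X_comm' {r s : ℕ} (hr : r < 72) (hs : s < 72) (h1 : s ≠ r) (h2 : s ≠ chevE6.neg r)
    (h : chevE6.commTerms r s = []) (t u : K) : X K s u * X K r t = X K r t * X K s u := by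
  rw [E6Rep.X_comm hr hs h1 h2]
  have : chevE6.commWord K r s t u = [] := by
    unfold ChevalleyDatum.commWord
    rw [h]; rfl
  rw [this, List.map_nil, List.prod_nil, mul_one]

theorem pres_pair {r s : ℕ} (h : dualOk r s = true) (h' : dualOk s r = true) (h1 : s ≠ r) (h2 : s ≠ chevE6.neg r)
    (hc : chevE6.commTerms r s = []) (t : K) : Pres (X K r t * X K s (t ^ 2)) := by
  have hr : r < 72 := by
    unfold dualOk at h
    rw [Bool.and_eq_true, Bool.and_eq_true] at h
    exact Nat.le_of_ble_eq_true h.1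
  have hs : s < 72 := by
    unfold dualOk at h
    rw [Bool.and_eq_true, Bool.and_eq_true] at h
    exact Nat.le_of_ble_eq_true h.2.1
  have hsq : (X K r t * X K s (t ^ 2)) * (X K r t * X K s (t ^ 2)) = 1 := by
    have e := X_comm' hr hs h1 h2 hc t (t ^ 2)
    have e2 : (X K r t * X K s (t ^ 2)) * (X K r t * X K s (t ^ 2)) = (X K r t * X K r t) * (X K s (t ^ 2) * X K s (t ^ 2)) := by
      rw [mul_assoc, ← mul_assoc (X K s (t ^ 2)), e]
      simp only [mul_assoc]
    rw [e2, E6Rep.X_add, E6Rep.X_add, CharTwo.add_self_eq_zero, CharTwo.add_self_eq_zero, E6Rep.X_zero, E6Rep.X_zero, one_mul]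
  constructor
  · intro v
    rw [Units.val_mul, ← Matrix.mulVec_mulVec, E6Rep.T_X, E6Rep.T_X]
  · intro u v
    have e3 : (t ^ 2) ^ 2 = t := by rw [← pow_mul]; exact pow4 h3 t
    have a1 := hf_X h (pow4 h3 t)
    have a2 := hf_X h' (pow4 h3 (t ^ 2))
    rw [e3] at a2
    rw [Units.val_mul, ← Matrix.mulVec_mulVec, a1, a2, ← Matrix.mulVec_mulVec]
    rw [Matrix.mulVec_mulVec, Matrix.mulVec_mulVec, Matrix.mulVec_mulVec, ← Units.val_mul, ← Units.val_mul, ← Units.val_mul]
    have e4 : X K r t * X K s (t ^ 2) * X K r t * X K s (t ^ 2) = 1 := by rw [← hsq]; simp only [mul_assoc]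
    rw [e4, Units.val_one, Matrix.one_mulVec]

theorem pres_fix {r : ℕ} (h : dualOk r r = true) {t : K} (ht : t ^ 2 = t) : Pres (X K r t) := by
  constructor
  · intro v; rw [E6Rep.T_X]
  · intro u v
    rw [hf_X h (pow4 h3 t), ht, Matrix.mulVec_mulVec, ← Units.val_mul, E6Rep.X_add, CharTwo.add_self_eq_zero, E6Rep.X_zero,
      Units.val_one, Matrix.one_mulVec]

theorem ct : (chevE6.commTerms 56 36 = [] ∧ chevE6.commTerms 15 35 = [] ∧ chevE6.commTerms 42 37 = [] ∧
    chevE6.commTerms 29 34 = []) ∧ chevE6.neg 56 = 15 ∧ chevE6.neg 15 = 56 ∧ chevE6.neg 42 = 29 ∧ chevE6.neg 29 = 42 := by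
  decide +kernel

/-- lifts of elements of `2E6(2)` -/
theorem exists_lift {g : GL chevE6.Idx K} (hg : g ∈ twistedE6 K 2) : ∃ s : chevE6.SteinbergGroup K,
    ((θ K s : ↥(chevE6.group K)) : GL chevE6.Idx K) = g ∧ Pres (φ K s) := by
  let L : Subgroup (GL chevE6.Idx K) :=
    { carrier := {g | ∃ s : chevE6.SteinbergGroup K, ((θ K s : ↥(chevE6.group K)) : GL chevE6.Idx K) = g ∧ Pres (φ K s)}
      one_mem' := ⟨1, by rw [map_one]; rfl, by rw [map_one]; exact Pres.one⟩
      mul_mem' := by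
        rintro _ _ ⟨s, rfl, h⟩ ⟨s', rfl, h'⟩
        exact ⟨s * s', by rw [map_mul]; rfl, by rw [map_mul]; exact h.mul h'⟩
      inv_mem' := by
        rintro _ ⟨s, rfl, h⟩
        exact ⟨s⁻¹, by rw [map_inv]; rfl, by rw [map_inv]; exact h.inv⟩ }
  have hle : twistedE6 K 2 ≤ L := by
    unfold twistedE6 ChevalleyDatum.genSubgroup
    rw [Subgroup.closure_le]
    rintro g ⟨w, hw, hgw⟩
    have hgw' : g = wg chevE6 K w := by
      apply Units.ext
      rw [hgw, coe_wg GE w]
    have hd := dual8 h3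
    rw [Bool.and_eq_true, Bool.and_eq_true, Bool.and_eq_true, Bool.and_eq_true, Bool.and_eq_true, Bool.and_eq_true,
      Bool.and_eq_true, Bool.and_eq_true, Bool.and_eq_true, Bool.and_eq_true, Bool.and_eq_true] at hd
    obtain ⟨⟨⟨⟨⟨⟨⟨⟨⟨⟨⟨d1, d2⟩, d3⟩, d4⟩, d5⟩, d6⟩, d7⟩, d8⟩, d9⟩, d10⟩, d11⟩, d12⟩ := hd
    obtain ⟨⟨c1, c2, c3, c4⟩, c5, c6, c7, c8⟩ := ct h3
    have key : ∀ w : List (ℕ × K), (∀ p ∈ w, p.1 < chevE6.nroots) → Pres (Xw w) → wg chevE6 K w ∈ L := by
      intro w hw hp
      exact ⟨sw w, θ_sw hw, by rw [φ_sw]; exact hp⟩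
    rw [hgw']
    rcases hw with ⟨t, ht, r, hr, rfl⟩ | ⟨t, rs, hrs, rfl⟩
    · have hX : Xw [(r, t)] = X K r t := by simp [Xw]
      simp only [List.mem_cons, List.not_mem_nil, or_false] at hr
      apply key
      · intro p hp
        rw [List.mem_singleton] at hp
        subst hp
        change r < chevE6.nroots
        rcases hr with rfl | rfl | rfl | rfl <;> decide
      · rw [hX]
        rcases hr with rfl | rfl | rfl | rfl
        · exact pres_fix h3 d1 ht
        · exact pres_fix h3 d2 ht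
        · exact pres_fix h3 d3 ht
        · exact pres_fix h3 d4 ht
    · have hX : Xw [(rs.1, t), (rs.2, t ^ 2)] = X K rs.1 t * X K rs.2 (t ^ 2) := by simp [Xw]
      rw [List.mem_cons, List.mem_cons, List.mem_cons, List.mem_singleton] at hrs
      apply key
      · intro p hp
        simp only [List.mem_cons, List.not_mem_nil, or_false] at hp
        have hlt : rs.1 < chevE6.nroots ∧ rs.2 < chevE6.nroots := by
          rcases hrs with rfl | rfl | rfl | rfl <;> decide
        rcases hp with rfl | rfl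
        · exact hlt.1
        · exact hlt.2
      · rw [hX]
        rcases hrs with rfl | rfl | rfl | rfl
        · exact pres_pair h3 d5 d6 (by decide) (by rw [c5]; decide) c1 t
        · exact pres_pair h3 d7 d8 (by decide) (by rw [c6]; decide) c2 t
        · exact pres_pair h3 d9 d10 (by decide) (by rw [c7]; decide) c3 t
        · exact pres_pair h3 d11 d12 (by decide) (by rw [c8]; decide) c4 t
  exact hle hg

end

end Cfsg.Agent.Lib.E6O
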