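import Cfsg.Agent.Lib.E6OA
set_option autoImplicit false
set_option linter.unusedSectionVars false
set_option linter.unusedVariables false
set_option linter.style.haveILetI false

/-!
Isometries of the cubic and the Hermitian form fixing basis vectors.
-/

namespace Cfsg.Agent.Lib.E6O
open Cfsg.Lie
open Cfsg.Agent.Lib.E6Rep (dec cod f thz val)
open scoped MatrixGroups Matrix

universe u

/-- encoded third weight -/
def th (n j : ℕ) : ℕ := (thz n j).natAbs

theorem th_tab : ∀ n < 27, ∀ j < 27, th n j ≤ 27 ∧ (th n j ≠ 0 → th n (th n j - 1) = j + 1) := by decide +kernel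

section
variable {K : Type u} [Field K]

/-- basis vectors -/
abbrev ev (n : ℕ) : I27 → K := E6Rep.e K n

/-- entries -/
def en' (M : GL I27 K) (a b : ℕ) : K := (M : Matrix I27 I27 K) (dec a) (dec b)

theorem en'_eq (M : GL I27 K) (a b : ℕ) : en' M a b = ((M : Matrix I27 I27 K) *ᵥ ev b) (dec a) := by
  unfold en' ev E6Rep.e
  rw [Matrix.mulVec_single_one]; rfl

theorem ev_dec {a x : ℕ} (ha : a < 27) (hx : x < 27) : (ev x : I27 → K) (dec a) = if a = x then 1 else 0 := by
  rw [ev, E6Rep.e_dec ha hx]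
  by_cases h : a = x <;> simp [h]

theorem ext27 {u v : I27 → K} (h : ∀ a < 27, u (dec a) = v (dec a)) : u = v := by
  ext i
  rw [← E6Rep.dec_cod i]
  exact h _ (E6Rep.cod_lt i)

theorem ext_en {M N : GL I27 K} (h : ∀ a < 27, ∀ b < 27, en' M a b = en' N a b) : M = N := by
  apply Units.ext
  ext i j
  have := h _ (E6Rep.cod_lt i) _ (E6Rep.cod_lt j)
  unfold en' at this
  rwa [E6Rep.dec_cod, E6Rep.dec_cod] at this

theorem en'_mul (M N : GL I27 K) (a b : ℕ) : en' (M * N) a b = ∑ k ∈ Finset.range 27, en' M a k * en' N k b := by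
  unfold en'
  rw [Units.val_mul, Matrix.mul_apply, ← F4Mat.sum_I27 (fun k => (M : Matrix I27 I27 K) (dec a) (dec k) * (N : Matrix I27 I27 K) (dec k) (dec b))]
  exact Finset.sum_congr rfl fun x _ => by rw [E6Rep.dec_cod]

theorem en'_one {a b : ℕ} (ha : a < 27) (hb : b < 27) : en' (1 : GL I27 K) a b = if a = b then 1 else 0 := by
  rw [en'_eq, Units.val_one, Matrix.one_mulVec, ev_dec ha hb]

/-- fixed basis vectors -/
def Fx (M : GL I27 K) (n : ℕ) : Prop := (M : Matrix I27 I27 K) *ᵥ ev n = ev n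

theorem Fx.mul {M N : GL I27 K} {n : ℕ} (hM : Fx M n) (hN : Fx N n) : Fx (M * N) n := by
  unfold Fx at *
  rw [Units.val_mul, ← Matrix.mulVec_mulVec, hN, hM]

theorem Fx.inv {M : GL I27 K} {n : ℕ} (hM : Fx M n) : Fx M⁻¹ n := by
  unfold Fx at *
  rw [← hM, Matrix.mulVec_mulVec, ← Units.val_mul, inv_mul_cancel, Units.val_one, Matrix.one_mulVec, hM]

theorem Fx.one (n : ℕ) : Fx (1 : GL I27 K) n := by
  unfold Fx
  rw [Units.val_one, Matrix.one_mulVec]

theorem fx_iff {M : GL I27 K} {n : ℕ} (hn : n < 27) : Fx M n ↔ ∀ a < 27, en' M a n = if a = n then 1 else 0 := by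
  constructor
  · intro h a ha
    rw [en'_eq, h, ev_dec ha hn]
  · intro h
    apply ext27
    intro a ha
    rw [← en'_eq, h a ha, ev_dec ha hn]

/-- value with a natural code -/
def nv (v : I27 → K) (z : ℕ) : K := if z = 0 then 0 else v (dec (z - 1))

variable [CharP K 2]

theorem val_nv (v : I27 → K) (z : ℤ) : val v z = nv v z.natAbs := by
  unfold nv
  match z with
  | .ofNat 0 => rfl
  | .ofNat (n + 1) => rfl
  | .negSucc n =>
    change -v (dec n) = v (dec n)
    exact CharTwo.neg_eq _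

theorem f_ev {n j : ℕ} (hn : n < 27) (hj : j < 27) (v : I27 → K) : f (ev n) v (ev j) = nv v (th n j) := by
  rw [E6Rep.f_ee hn hj, val_nv]; rfl

variable (h3 : ∀ c : K, c ≠ 0 → c ^ 3 = 1) (hF : ∃ t : K, t ≠ 0 ∧ t ≠ 1)

include hF in
theorem f_pres' {M : GL I27 K} (hM : Pres M) (u v w : I27 → K) :
    f ((M : Matrix I27 I27 K) *ᵥ u) ((M : Matrix I27 I27 K) *ᵥ v) ((M : Matrix I27 I27 K) *ᵥ w) = f u v w :=
  E6Rep.f_pres hF (E6Rep.mem_E6univ.2 hM.1) u v w

/-- the semilinear maps -/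
def fi (n : ℕ) (u : I27 → K) : I27 → K := fun i => nv u (th n (pl (cod i))) ^ 2

theorem sum_ev (v : I27 → K) : v = ∑ i : I27, v i • ev (cod i) := by
  ext j
  rw [Finset.sum_apply, Finset.sum_eq_single j]
  · rw [Pi.smul_apply, smul_eq_mul]
    unfold ev E6Rep.e
    rw [E6Rep.dec_cod, Pi.single_eq_same, mul_one]
  · intro i _ hi
    rw [Pi.smul_apply, smul_eq_mul]
    unfold ev E6Rep.e
    rw [E6Rep.dec_cod, Pi.single_eq_of_ne hi.symm, mul_zero]
  · intro h; exact absurd (Finset.mem_univ j) h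

theorem f_sum3 {ι : Type*} (s : Finset ι) (u v : I27 → K) (g : ι → K) (w : ι → I27 → K) :
    f u v (∑ i ∈ s, g i • w i) = ∑ i ∈ s, g i * f u v (w i) := by
  classical
  induction s using Finset.induction_on with
  | empty =>
    rw [Finset.sum_empty, Finset.sum_empty]
    have := E6Rep.fL_smul3 E6Rep.mono u v 0 (0 : K)
    rw [zero_smul, zero_mul] at this
    exact this
  | insert a s ha ih =>
    rw [Finset.sum_insert ha, Finset.sum_insert ha, ← ih]
    have h1 := E6Rep.fL_add3 E6Rep.mono u v (g a • w a) (∑ i ∈ s, g i • w i)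
    have h2 := E6Rep.fL_smul3 E6Rep.mono u v (w a) (g a)
    rw [h2] at h1
    exact h1

include h3 in
theorem hf_fi {n : ℕ} (hn : n < 27) (u v : I27 → K) : hf v (fi n u) = f (ev n) u v := by
  conv_rhs => rw [sum_ev v, f_sum3]
  unfold hf fi
  apply Finset.sum_congr rfl
  intro i _
  rw [f_ev hn (E6Rep.cod_lt i), cod_pii, pl_pl _ (E6Rep.cod_lt i), ← pow_mul, pow4 h3]

theorem hf_nondeg {u v : I27 → K} (h : ∀ w, hf w u = hf w v) : u = v := by
  ext i
  have h1 := h (Pi.single (pii i) 1)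
  rw [hf_single_left, hf_single_left, pii_pii] at h1
  exact CharTwo.sq_injective h1

include h3 hF in
theorem fi_comm {M : GL I27 K} (hM : Pres M) {n : ℕ} (hn : n < 27) (hx : Fx M n) (u : I27 → K) :
    fi n ((M : Matrix I27 I27 K) *ᵥ u) = (M : Matrix I27 I27 K) *ᵥ fi n u := by
  apply hf_nondeg
  intro w
  have hw : w = (M : Matrix I27 I27 K) *ᵥ (((M⁻¹ : GL I27 K) : Matrix I27 I27 K) *ᵥ w) := by
    rw [Matrix.mulVec_mulVec, ← Units.val_mul, mul_inv_cancel, Units.val_one, Matrix.one_mulVec]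
  rw [hw, hM.2, hf_fi h3 hn, hf_fi h3 hn]
  have := f_pres' hF hM (ev n) u (((M⁻¹ : GL I27 K) : Matrix I27 I27 K) *ᵥ w)
  rw [hx] at this
  exact this

/-- extended entry -/
theorem nv_M (M : GL I27 K) (z j : ℕ) : nv ((M : Matrix I27 I27 K) *ᵥ ev j) z = if z = 0 then 0 else en' M (z - 1) j := by
  unfold nv
  rw [en'_eq]

theorem fi_ev {n j : ℕ} (hn : n < 27) (hj : j < 27) : fi n (ev j : I27 → K) = if th n j = 0 then 0 else ev (pl (th n j - 1)) := by
  apply ext27
  intro a ha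
  unfold fi
  rw [E6Rep.cod_dec a ha]
  have hpa := pl_lt a ha
  have ht := th_tab n hn (pl a) hpa
  have ht2 := th_tab n hn j hj
  unfold nv
  by_cases h1 : th n (pl a) = 0
  · rw [if_pos h1]
    by_cases h2 : th n j = 0
    · rw [if_pos h2]; simp
    · rw [if_neg h2, ev_dec ha (pl_lt _ (by omega)), if_neg]
      · simp
      · intro h3
        have h4 : pl a = th n j - 1 := by rw [h3, pl_pl _ (by omega)]
        have h5 := ht2.2 h2
        rw [← h4, h1] at h5
        omega
  · rw [if_neg h1, ev_dec (by omega) hj]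
    by_cases h2 : th n j = 0
    · rw [if_pos h2, if_neg]
      · simp
      · intro h3
        have h5 := ht.2 h1
        rw [h3, h2] at h5
        omega
    · rw [if_neg h2, ev_dec ha (pl_lt _ (by omega))]
      by_cases h4 : th n (pl a) - 1 = j
      · rw [if_pos h4, if_pos, one_pow]
        have h5 := ht.2 h1
        rw [h4] at h5
        rw [h5, Nat.add_sub_cancel, pl_pl a ha]
      · rw [if_neg h4, if_neg]
        · simp
        · intro h5
          apply h4
          rw [h5, pl_pl _ (by omega)]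
          have h6 := ht2.2 h2
          rw [h6, Nat.add_sub_cancel]

include h3 hF in
/-- the basic relation -/
theorem rel {M : GL I27 K} (hM : Pres M) {n : ℕ} (hn : n < 27) (hx : Fx M n) {i j : ℕ} (hi : i < 27) (hj : j < 27) :
    (if th n (pl i) = 0 then 0 else en' M (th n (pl i) - 1) j) ^ 2 = if th n j = 0 then 0 else en' M i (pl (th n j - 1)) := by
  have h := congrFun (fi_comm h3 hF hM hn hx (ev j)) (dec i)
  rw [fi_ev hn hj] at h
  unfold fi at h
  rw [E6Rep.cod_dec i hi, nv_M] at h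
  rw [h]
  split_ifs with h1
  · rw [Matrix.mulVec_zero]; rfl
  · rw [en'_eq]

include h3 hF in
theorem R1 {M : GL I27 K} (hM : Pres M) {n : ℕ} (hn : n < 27) (hx : Fx M n) {a j : ℕ} (ha : a < 27) (hj : j < 27)
    (h1 : th n a ≠ 0) (h2 : th n j = 0) : en' M a j = 0 := by
  have ht := th_tab n hn a ha
  have h := rel h3 hF hM hn hx (i := pl (th n a - 1)) (pl_lt _ (by omega)) hj
  rw [pl_pl _ (by omega), ht.2 h1, if_neg (by omega), if_pos h2, Nat.add_sub_cancel] at h
  exact pow_eq_zero_iff (two_ne_zero) |>.1 h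

include h3 hF in
theorem R2 {M : GL I27 K} (hM : Pres M) {n : ℕ} (hn : n < 27) (hx : Fx M n) {a j : ℕ} (ha : a < 27) (hj : j < 27)
    (h1 : th n a ≠ 0) (h2 : th n j ≠ 0) : en' M a j ^ 2 = en' M (pl (th n a - 1)) (pl (th n j - 1)) := by
  have ht := th_tab n hn a ha
  have h := rel h3 hF hM hn hx (i := pl (th n a - 1)) (pl_lt _ (by omega)) hj
  rw [pl_pl _ (by omega), ht.2 h1, if_neg (by omega), if_neg h2, Nat.add_sub_cancel] at h
  exact h

include h3 hF in
theorem R3 {M : GL I27 K} (hM : Pres M) {n : ℕ} (hn : n < 27) (hx : Fx M n) {a j : ℕ} (ha : a < 27) (hj : j < 27)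
    (h1 : th n (pl a) = 0) (h2 : th n (pl j) ≠ 0) : en' M a j = 0 := by
  have ht := th_tab n hn (pl j) (pl_lt j hj)
  have h := rel h3 hF hM hn hx (i := a) (j := th n (pl j) - 1) ha (by omega)
  rw [if_pos h1, ht.2 h2, if_neg (by omega), Nat.add_sub_cancel, pl_pl j hj] at h
  rw [← h]; simp

/-- separation of two weights by a list of weights -/
def sep (L : List ℕ) (a j : ℕ) : Bool := L.any fun n =>
  (!(Nat.beq (th n a) 0) && Nat.beq (th n j) 0) || (Nat.beq (th n (pl a)) 0 && !(Nat.beq (th n (pl j)) 0))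

include h3 hF in
theorem sep_zero {M : GL I27 K} (hM : Pres M) {L : List ℕ} (hL : ∀ n ∈ L, n < 27 ∧ Fx M n) {a j : ℕ} (ha : a < 27) (hj : j < 27)
    (h : sep L a j = true) : en' M a j = 0 := by
  unfold sep at h
  rw [List.any_eq_true] at h
  obtain ⟨n, hn, h⟩ := h
  obtain ⟨h1, h2⟩ := hL n hn
  rw [Bool.or_eq_true, Bool.and_eq_true, Bool.and_eq_true] at h
  rcases h with ⟨h4, h5⟩ | ⟨h4, h5⟩
  · refine R1 h3 hF hM h1 h2 ha hj ?_ (Nat.eq_of_beq_eq_true h5)
    intro h6
    rw [h6] at h4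
    exact absurd h4 (by decide)
  · refine R3 h3 hF hM h1 h2 ha hj (Nat.eq_of_beq_eq_true h4) ?_
    intro h6
    rw [h6] at h5
    exact absurd h5 (by decide)

/-- the five fixed vectors -/
def F5 : List ℕ := [2, 3, 7, 15, 18]
/-- the block -/
def NB : Fin 4 → ℕ := ![8, 10, 11, 19]
def F9 : List ℕ := [2, 3, 7, 15, 18, 8, 10, 11, 19]

theorem NB_lt (i : Fin 4) : NB i < 27 := by revert i; decide
theorem F5_lt : ∀ n ∈ F5, n < 27 := by decide
theorem F9_lt : ∀ n ∈ F9, n < 27 := by decide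

theorem sep5 : ∀ i : Fin 4, ∀ k < 27, k ∈ [8, 10, 11, 19] ∨ (sep F5 (NB i) k = true ∧ sep F5 k (NB i) = true) := by decide +kernel
theorem sep9 : ∀ a < 27, ∀ j < 27, a = j ∨ sep F9 a j = true := by decide +kernel

/-- the restriction to the block -/
def bb (M : GL I27 K) : Matrix (Fin 4) (Fin 4) K := Matrix.of fun i j => en' M (NB i) (NB j)

theorem sum_NB {g : ℕ → K} (hg : ∀ k < 27, k ∉ [8, 10, 11, 19] → g k = 0) : ∑ k ∈ Finset.range 27, g k = ∑ i : Fin 4, g (NB i) := by
  rw [Fin.sum_univ_four]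
  have h : ∀ k ∈ Finset.range 27, g k = if k ∈ ({8, 10, 11, 19} : Finset ℕ) then g k else 0 := by
    intro k hk
    rw [Finset.mem_range] at hk
    split_ifs with h1
    · rfl
    · apply hg k hk
      intro h2
      apply h1
      simpa using h2
  rw [Finset.sum_congr rfl h, Finset.sum_ite_mem]
  have h2 : Finset.range 27 ∩ {8, 10, 11, 19} = ({8, 10, 11, 19} : Finset ℕ) := by decide
  rw [h2]
  simp only [NB]
  rw [Finset.sum_insert (by decide), Finset.sum_insert (by decide), Finset.sum_insert (by decide), Finset.sum_singleton]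
  simp [add_assoc]

include h3 hF in
theorem bb_mul {M N : GL I27 K} (hM : Pres M) (hM5 : ∀ n ∈ F5, Fx M n) : bb (M * N) = bb M * bb N := by
  ext i j
  rw [Matrix.mul_apply]
  change en' (M * N) (NB i) (NB j) = ∑ k, en' M (NB i) (NB k) * en' N (NB k) (NB j)
  rw [en'_mul]
  apply sum_NB (g := fun k => en' M (NB i) k * en' N k (NB j))
  intro k hk hk2
  have := (sep5 i k hk).resolve_left hk2
  rw [sep_zero h3 hF hM (fun n hn => ⟨F5_lt n hn, hM5 n hn⟩) (NB_lt i) hk this.1, zero_mul]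

theorem bb_one : bb (1 : GL I27 K) = 1 := by
  ext i j
  change en' 1 (NB i) (NB j) = _
  rw [en'_one (NB_lt i) (NB_lt j), Matrix.one_apply]
  have : NB i = NB j ↔ i = j := by revert i j; decide
  simp only [this]

theorem th15 : ∀ i : Fin 4, th 15 (NB i) ≠ 0 ∧ pl (th 15 (NB i) - 1) = NB i := by decide +kernel

include h3 hF in
theorem bb_sq {M : GL I27 K} (hM : Pres M) (hM5 : ∀ n ∈ F5, Fx M n) (i j : Fin 4) : bb M i j ^ 2 = bb M i j := by
  have h := R2 h3 hF hM (n := 15) (by decide) (hM5 15 (by decide)) (NB_lt i) (NB_lt j) (th15 i).1 (th15 j).1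
  rw [(th15 i).2, (th15 j).2] at h
  exact h

include h3 hF in
theorem fx_NB {M : GL I27 K} (hM : Pres M) (hM5 : ∀ n ∈ F5, Fx M n) (hb : bb M = 1) (i : Fin 4) : Fx M (NB i) := by
  rw [fx_iff (NB_lt i)]
  intro a ha
  rcases sep5 i a ha with h | h
  · obtain ⟨j, rfl⟩ : ∃ j, a = NB j := by
      simp only [List.mem_cons, List.not_mem_nil, or_false] at h
      rcases h with rfl | rfl | rfl | rfl
      · exact ⟨0, rfl⟩
      · exact ⟨1, rfl⟩
      · exact ⟨2, rfl⟩
      · exact ⟨3, rfl⟩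
    have h1 : bb M j i = (1 : Matrix (Fin 4) (Fin 4) K) j i := by rw [hb]
    change en' M (NB j) (NB i) = _ at h1
    rw [h1, Matrix.one_apply]
    have : ∀ i j : Fin 4, NB j = NB i ↔ j = i := by decide
    simp only [this i j]
  · rw [sep_zero h3 hF hM (fun n hn => ⟨F5_lt n hn, hM5 n hn⟩) ha (NB_lt i) h.2, if_neg]
    rintro rfl
    have : ∀ i, sep F5 (NB i) (NB i) = false := by decide +kernel
    rw [this] at h
    exact absurd h.1 (by decide)

/-- the steps -/
def steps : List (ℕ × ℕ × ℕ) := [(1, 3, 8), (5, 15, 19), (6, 1, 5), (9, 3, 19), (12, 18, 1), (13, 15, 11), (14, 15, 10),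
  (16, 11, 12), (17, 10, 12), (20, 7, 12), (21, 2, 16), (22, 3, 10), (23, 7, 13), (24, 2, 17), (25, 3, 11), (26, 7, 14),
  (0, 7, 5), (4, 2, 6)]

def stepsOk : List ℕ → List (ℕ × ℕ × ℕ) → Bool
  | L, [] => (List.range 27).all fun k => L.elem k
  | L, s :: l => (Nat.blt s.1 27 && (L.elem s.2.1 && (L.elem s.2.2 && Nat.beq (th s.2.1 s.2.2) (s.1 + 1)))) && stepsOk (s.1 :: L) l

theorem steps_ok : stepsOk F9 steps = true := by decide +kernel

theorem steps_sound {M : GL I27 K} (hd : ∀ i j k, i < 27 → j < 27 → k < 27 → Fx M j → Fx M k → th j k = i + 1 → Fx M i) :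
    ∀ (l : List (ℕ × ℕ × ℕ)) (L : List ℕ), stepsOk L l = true → (∀ n ∈ L, n < 27 ∧ Fx M n) → ∀ k < 27, Fx M k
  | [], L, h, hL, k, hk => by
    unfold stepsOk at h
    rw [List.all_eq_true] at h
    have := h k (List.mem_range.2 hk)
    exact (hL k (List.elem_iff.1 this)).2
  | s :: l, L, h, hL, k, hk => by
    unfold stepsOk at h
    rw [Bool.and_eq_true, Bool.and_eq_true, Bool.and_eq_true, Bool.and_eq_true] at h
    obtain ⟨⟨h1, h2, h4, h5⟩, h6⟩ := h
    have h1' : s.1 < 27 := Nat.le_of_ble_eq_true h1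
    refine steps_sound hd l (s.1 :: L) h6 ?_ k hk
    intro n hn
    rcases List.mem_cons.1 hn with rfl | hn
    · obtain ⟨a1, a2⟩ := hL _ (List.elem_iff.1 h2)
      obtain ⟨b1, b2⟩ := hL _ (List.elem_iff.1 h4)
      exact ⟨h1', hd _ _ _ h1' a1 b1 a2 b2 (Nat.eq_of_beq_eq_true h5)⟩
    · exact hL n hn

include h3 hF in
/-- injectivity -/
theorem bb_inj {M : GL I27 K} (hM : Pres M) (hM5 : ∀ n ∈ F5, Fx M n) (hb : bb M = 1) : M = 1 := by
  have h9 : ∀ n ∈ F9, n < 27 ∧ Fx M n := by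
    intro n hn
    refine ⟨F9_lt n hn, ?_⟩
    have : n ∈ F5 ∨ ∃ i, n = NB i := by
      revert n; decide
    rcases this with h | ⟨i, rfl⟩
    · exact hM5 n h
    · exact fx_NB h3 hF hM hM5 hb i
  have hdiag : ∀ a < 27, ∀ j < 27, a ≠ j → en' M a j = 0 := by
    intro a ha j hj haj
    exact sep_zero h3 hF hM h9 ha hj ((sep9 a ha j hj).resolve_left haj)
  have hcol : ∀ j < 27, (M : Matrix I27 I27 K) *ᵥ ev j = en' M j j • ev j := by
    intro j hj
    apply ext27
    intro a ha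
    rw [← en'_eq, Pi.smul_apply, smul_eq_mul, ev_dec ha hj]
    by_cases h : a = j
    · rw [if_pos h, mul_one, h]
    · rw [if_neg h, mul_zero]
      exact hdiag a ha j hj h
  have hd : ∀ i j k, i < 27 → j < 27 → k < 27 → Fx M j → Fx M k → th j k = i + 1 → Fx M i := by
    intro i j k hi hj hk hxj hxk ht
    have h1 := f_pres' hF hM (ev j) (ev i) (ev k)
    rw [hxj, hxk, hcol i hi] at h1
    have h2 := E6Rep.fL_smul2 E6Rep.mono (ev j) (ev i) (ev k) (en' M i i)
    have h4 : f (ev j) (ev i) (ev k) = (1 : K) := by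
      rw [f_ev hj hk, ht]
      unfold nv
      rw [if_neg (by omega), Nat.add_sub_cancel, ev_dec hi hi, if_pos rfl]
    have h5 : f (ev j) (en' M i i • ev i) (ev k) = en' M i i * f (ev j) (ev i) (ev k) := h2
    rw [h5, h4, mul_one] at h1
    unfold Fx
    rw [hcol i hi, h1, one_smul]
  have hall := steps_sound hd steps F9 steps_ok h9
  apply ext_en
  intro a ha b hb'
  rw [en'_eq, hall b hb', en'_one ha hb', ev_dec ha hb']

end

end Cfsg.Agent.Lib.E6O
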