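import Cfsg.Agent.Lib.E6OD
set_option autoImplicit false
set_option linter.unusedSectionVars false
set_option linter.unusedVariables false
set_option linter.style.haveILetI false

/-!
The centralizer of an element of order five in the isometry group of the cubic and the Hermitian form.
-/

namespace Cfsg.Agent.Lib.E6O
open Cfsg.Lie Cfsg.Agent.Lib.F4Mat Cfsg.Agent.Lib.E6Pair
open Cfsg.Agent.Lib.E6Rep (dec cod f thz val D)
open scoped MatrixGroups Matrix

universe u

/-- the support of the fixed space -/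
def S7 : List ℕ := [2, 4, 6, 16, 17, 21, 24]

section
variable {K : Type u} [Field K]

/-- supported on the fixed space -/
def Sup (u : I27 → K) : Prop := ∀ a < 27, a ∉ S7 → u (dec a) = 0

/-- the bilinear form -/
def b6 (v w : I27 → K) : K := v (dec 4) * w (dec 6) + v (dec 6) * w (dec 4) + (v (dec 16) * w (dec 21) + v (dec 21) * w (dec 16)) +
  (v (dec 17) * w (dec 24) + v (dec 24) * w (dec 17))

/-- the quadratic form -/
def q6 (v : I27 → K) : K := v (dec 4) * v (dec 6) + v (dec 16) * v (dec 21) + v (dec 17) * v (dec 24)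

variable [CharP K 2]

theorem f_sup {u v w : I27 → K} (hu : Sup u) (hv : Sup v) (hw : Sup w) : f u v w =
    u (dec 2) * b6 v w + v (dec 2) * b6 u w + w (dec 2) * b6 u v := by
  have h2 : (-1 : K) = 1 := CharTwo.neg_eq _
  have u0 := hu 0 (by decide) (by decide)
  have u1 := hu 1 (by decide) (by decide)
  have u3 := hu 3 (by decide) (by decide)
  have u5 := hu 5 (by decide) (by decide)
  have u7 := hu 7 (by decide) (by decide)
  have u8 := hu 8 (by decide) (by decide)
  have u9 := hu 9 (by decide) (by decide)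
  have u10 := hu 10 (by decide) (by decide)
  have u11 := hu 11 (by decide) (by decide)
  have u12 := hu 12 (by decide) (by decide)
  have u13 := hu 13 (by decide) (by decide)
  have u14 := hu 14 (by decide) (by decide)
  have u15 := hu 15 (by decide) (by decide)
  have u18 := hu 18 (by decide) (by decide)
  have u19 := hu 19 (by decide) (by decide)
  have u20 := hu 20 (by decide) (by decide)
  have u22 := hu 22 (by decide) (by decide)
  have u23 := hu 23 (by decide) (by decide)
  have u25 := hu 25 (by decide) (by decide)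
  have u26 := hu 26 (by decide) (by decide)
  have v0 := hv 0 (by decide) (by decide)
  have v1 := hv 1 (by decide) (by decide)
  have v3 := hv 3 (by decide) (by decide)
  have v5 := hv 5 (by decide) (by decide)
  have v7 := hv 7 (by decide) (by decide)
  have v8 := hv 8 (by decide) (by decide)
  have v9 := hv 9 (by decide) (by decide)
  have v10 := hv 10 (by decide) (by decide)
  have v11 := hv 11 (by decide) (by decide)
  have v12 := hv 12 (by decide) (by decide)
  have v13 := hv 13 (by decide) (by decide)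
  have v14 := hv 14 (by decide) (by decide)
  have v15 := hv 15 (by decide) (by decide)
  have v18 := hv 18 (by decide) (by decide)
  have v19 := hv 19 (by decide) (by decide)
  have v20 := hv 20 (by decide) (by decide)
  have v22 := hv 22 (by decide) (by decide)
  have v23 := hv 23 (by decide) (by decide)
  have v25 := hv 25 (by decide) (by decide)
  have v26 := hv 26 (by decide) (by decide)
  have w0 := hw 0 (by decide) (by decide)
  have w1 := hw 1 (by decide) (by decide)
  have w3 := hw 3 (by decide) (by decide)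
  have w5 := hw 5 (by decide) (by decide)
  have w7 := hw 7 (by decide) (by decide)
  have w8 := hw 8 (by decide) (by decide)
  have w9 := hw 9 (by decide) (by decide)
  have w10 := hw 10 (by decide) (by decide)
  have w11 := hw 11 (by decide) (by decide)
  have w12 := hw 12 (by decide) (by decide)
  have w13 := hw 13 (by decide) (by decide)
  have w14 := hw 14 (by decide) (by decide)
  have w15 := hw 15 (by decide) (by decide)
  have w18 := hw 18 (by decide) (by decide)
  have w19 := hw 19 (by decide) (by decide)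
  have w20 := hw 20 (by decide) (by decide)
  have w22 := hw 22 (by decide) (by decide)
  have w23 := hw 23 (by decide) (by decide)
  have w25 := hw 25 (by decide) (by decide)
  have w26 := hw 26 (by decide) (by decide)
  simp only [f, E6Rep.fL, E6Rep.mono, List.map_cons, List.map_nil, List.sum_cons, List.sum_nil, Int.cast_one, Int.cast_neg, h2, one_mul,
    u0, u1, u3, u5, u7, u8, u9, u10, u11, u12, u13, u14, u15, u18, u19, u20, u22, u23, u25, u26, v0, v1, v3, v5, v7, v8, v9, v10, v11, v12, v13, v14, v15, v18, v19, v20, v22, v23, v25, v26, w0, w1, w3, w5, w7, w8, w9, w10, w11, w12, w13, w14, w15, w18, w19, w20, w22, w23, w25, w26, mul_zero, zero_mul, add_zero, zero_add, b6]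
  ring

theorem D_sup {u v : I27 → K} (hu : Sup u) (hv : Sup v) : D u v = v (dec 2) * q6 u + u (dec 2) * b6 u v := by
  have h2 : (-1 : K) = 1 := CharTwo.neg_eq _
  have u0 := hu 0 (by decide) (by decide)
  have u1 := hu 1 (by decide) (by decide)
  have u3 := hu 3 (by decide) (by decide)
  have u5 := hu 5 (by decide) (by decide)
  have u7 := hu 7 (by decide) (by decide)
  have u8 := hu 8 (by decide) (by decide)
  have u9 := hu 9 (by decide) (by decide)
  have u10 := hu 10 (by decide) (by decide)
  have u11 := hu 11 (by decide) (by decide)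
  have u12 := hu 12 (by decide) (by decide)
  have u13 := hu 13 (by decide) (by decide)
  have u14 := hu 14 (by decide) (by decide)
  have u15 := hu 15 (by decide) (by decide)
  have u18 := hu 18 (by decide) (by decide)
  have u19 := hu 19 (by decide) (by decide)
  have u20 := hu 20 (by decide) (by decide)
  have u22 := hu 22 (by decide) (by decide)
  have u23 := hu 23 (by decide) (by decide)
  have u25 := hu 25 (by decide) (by decide)
  have u26 := hu 26 (by decide) (by decide)
  have v0 := hv 0 (by decide) (by decide)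
  have v1 := hv 1 (by decide) (by decide)
  have v3 := hv 3 (by decide) (by decide)
  have v5 := hv 5 (by decide) (by decide)
  have v7 := hv 7 (by decide) (by decide)
  have v8 := hv 8 (by decide) (by decide)
  have v9 := hv 9 (by decide) (by decide)
  have v10 := hv 10 (by decide) (by decide)
  have v11 := hv 11 (by decide) (by decide)
  have v12 := hv 12 (by decide) (by decide)
  have v13 := hv 13 (by decide) (by decide)
  have v14 := hv 14 (by decide) (by decide)
  have v15 := hv 15 (by decide) (by decide)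
  have v18 := hv 18 (by decide) (by decide)
  have v19 := hv 19 (by decide) (by decide)
  have v20 := hv 20 (by decide) (by decide)
  have v22 := hv 22 (by decide) (by decide)
  have v23 := hv 23 (by decide) (by decide)
  have v25 := hv 25 (by decide) (by decide)
  have v26 := hv 26 (by decide) (by decide)
  simp only [D, E6Rep.DL, E6Rep.mono, List.map_cons, List.map_nil, List.sum_cons, List.sum_nil, Int.cast_one, Int.cast_neg, h2, one_mul,
    u0, u1, u3, u5, u7, u8, u9, u10, u11, u12, u13, u14, u15, u18, u19, u20, u22, u23, u25, u26, v0, v1, v3, v5, v7, v8, v9, v10, v11, v12, v13, v14, v15, v18, v19, v20, v22, v23, v25, v26, mul_zero, zero_mul, add_zero, zero_add, b6, q6]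
  ring

theorem D_ev2 (v : I27 → K) : D v (ev 2) = v (dec 3) * v (dec 7) + v (dec 4) * v (dec 6) + v (dec 15) * v (dec 18) +
    v (dec 16) * v (dec 21) + v (dec 17) * v (dec 24) := by
  have h2 : (-1 : K) = 1 := CharTwo.neg_eq _
  have e0 : (ev 2 : I27 → K) (dec 0) = 0 := by rw [ev_dec (by decide) (by decide)]; rfl
  have e1 : (ev 2 : I27 → K) (dec 1) = 0 := by rw [ev_dec (by decide) (by decide)]; rfl
  have e2 : (ev 2 : I27 → K) (dec 2) = 1 := by rw [ev_dec (by decide) (by decide)]; rfl
  have e3 : (ev 2 : I27 → K) (dec 3) = 0 := by rw [ev_dec (by decide) (by decide)]; rfl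
  have e4 : (ev 2 : I27 → K) (dec 4) = 0 := by rw [ev_dec (by decide) (by decide)]; rfl
  have e5 : (ev 2 : I27 → K) (dec 5) = 0 := by rw [ev_dec (by decide) (by decide)]; rfl
  have e6 : (ev 2 : I27 → K) (dec 6) = 0 := by rw [ev_dec (by decide) (by decide)]; rfl
  have e7 : (ev 2 : I27 → K) (dec 7) = 0 := by rw [ev_dec (by decide) (by decide)]; rfl
  have e8 : (ev 2 : I27 → K) (dec 8) = 0 := by rw [ev_dec (by decide) (by decide)]; rfl
  have e9 : (ev 2 : I27 → K) (dec 9) = 0 := by rw [ev_dec (by decide) (by decide)]; rfl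
  have e10 : (ev 2 : I27 → K) (dec 10) = 0 := by rw [ev_dec (by decide) (by decide)]; rfl
  have e11 : (ev 2 : I27 → K) (dec 11) = 0 := by rw [ev_dec (by decide) (by decide)]; rfl
  have e12 : (ev 2 : I27 → K) (dec 12) = 0 := by rw [ev_dec (by decide) (by decide)]; rfl
  have e13 : (ev 2 : I27 → K) (dec 13) = 0 := by rw [ev_dec (by decide) (by decide)]; rfl
  have e14 : (ev 2 : I27 → K) (dec 14) = 0 := by rw [ev_dec (by decide) (by decide)]; rfl
  have e15 : (ev 2 : I27 → K) (dec 15) = 0 := by rw [ev_dec (by decide) (by decide)]; rfl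
  have e16 : (ev 2 : I27 → K) (dec 16) = 0 := by rw [ev_dec (by decide) (by decide)]; rfl
  have e17 : (ev 2 : I27 → K) (dec 17) = 0 := by rw [ev_dec (by decide) (by decide)]; rfl
  have e18 : (ev 2 : I27 → K) (dec 18) = 0 := by rw [ev_dec (by decide) (by decide)]; rfl
  have e19 : (ev 2 : I27 → K) (dec 19) = 0 := by rw [ev_dec (by decide) (by decide)]; rfl
  have e20 : (ev 2 : I27 → K) (dec 20) = 0 := by rw [ev_dec (by decide) (by decide)]; rfl
  have e21 : (ev 2 : I27 → K) (dec 21) = 0 := by rw [ev_dec (by decide) (by decide)]; rfl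
  have e22 : (ev 2 : I27 → K) (dec 22) = 0 := by rw [ev_dec (by decide) (by decide)]; rfl
  have e23 : (ev 2 : I27 → K) (dec 23) = 0 := by rw [ev_dec (by decide) (by decide)]; rfl
  have e24 : (ev 2 : I27 → K) (dec 24) = 0 := by rw [ev_dec (by decide) (by decide)]; rfl
  have e25 : (ev 2 : I27 → K) (dec 25) = 0 := by rw [ev_dec (by decide) (by decide)]; rfl
  have e26 : (ev 2 : I27 → K) (dec 26) = 0 := by rw [ev_dec (by decide) (by decide)]; rfl
  simp only [D, E6Rep.DL, E6Rep.mono, List.map_cons, List.map_nil, List.sum_cons, List.sum_nil, Int.cast_one, Int.cast_neg, h2, one_mul,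
    e0, e1, e2, e3, e4, e5, e6, e7, e8, e9, e10, e11, e12, e13, e14, e15, e16, e17, e18, e19, e20, e21, e22, e23, e24, e25, e26, mul_zero, zero_mul, add_zero, zero_add]
  ring

omit [CharP K 2] in
theorem sup_ev {n : ℕ} (hn : n ∈ S7) : Sup (ev n : I27 → K) := by
  intro a ha ha'
  have : n < 27 := by revert n; decide
  rw [ev_dec ha this, if_neg]
  rintro rfl
  exact ha' hn

/-- packed projection -/
def e0L : List RV := (List.range 27).map fun n => if S7.elem n then (2 ^ n, 0) else (0, 0)

theorem sum_tab : eqL (addL (addL (addL (addL idL x0L) (powL x0L 2)) (powL x0L 3)) (powL x0L 4)) e0L = true := by decide +kernel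

/-- projection -/
def pr : Matrix I27 I27 K := Matrix.diagonal fun i => if cod i ∈ S7 then 1 else 0

theorem mt_e0L (ω : K) : mt ω e0L = pr := by
  ext i j
  have hi := E6Rep.cod_lt i
  change gt ω e0L (cod i) (cod j) = _
  have e : e0L.getD (cod i) (0, 0) = if S7.elem (cod i) then (2 ^ (cod i), 0) else (0, 0) := by
    unfold e0L
    rw [List.getD_eq_getElem _ _ (by rw [List.length_map, List.length_range]; exact hi), List.getElem_map, List.getElem_range]
  unfold gt
  rw [e]
  unfold pr
  by_cases h : cod i ∈ S7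
  · rw [if_pos (List.elem_iff.2 h)]
    unfold sv
    rw [bt_two_pow, bt_zero, mul_zero, add_zero]
    by_cases hij : i = j
    · subst hij
      rw [if_pos rfl, Matrix.diagonal_apply_eq, if_pos h]
    · rw [if_neg (fun hh => hij (cod_inj hh)), Matrix.diagonal_apply_ne _ hij]
  · rw [if_neg (fun hh => h (List.elem_iff.1 hh)), sv_zero]
    by_cases hij : i = j
    · subst hij
      rw [Matrix.diagonal_apply_eq, if_neg h]
    · rw [Matrix.diagonal_apply_ne _ hij]

/-- the element of order five -/
noncomputable def X0 (ω : K) : GL I27 K := Xw (evw ω (wb wx0))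

variable {ω : K} (hω : ω ^ 2 = ω + 1)
include hω

theorem okw_of {w : List (ℕ × ℕ × RV)} (h : w ∈ [wx0, wx1, wn, wm, ws, wq]) : okw tb (wb w) = true := by
  have := ok_words
  rw [List.all_eq_true] at this
  exact this w h

theorem coe_X0 : (X0 ω : Matrix I27 I27 K) = mt ω x0L := by
  have h := mt_words
  rw [Bool.and_eq_true] at h
  rw [← eqL_sound h.1, mt_mtw hω (okw_of hω (by simp))]
  rfl

theorem len_x0 : x0L.length = 27 := by decide

theorem coe_X0_pow (k : ℕ) : ((X0 ω ^ k : GL I27 K) : Matrix I27 I27 K) = mt ω (powL x0L k) := by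
  rw [Units.val_pow_eq_pow_val, coe_X0 hω, mt_powL hω (len_x0 hω)]

theorem X0_five : X0 ω ^ 5 = 1 := by
  apply Units.ext
  have h := rel_words
  rw [Bool.and_eq_true] at h
  rw [coe_X0_pow hω, eqL_sound h.1, mt_idL, Units.val_one]

theorem len_pow (k : ℕ) : (powL x0L k).length = 27 := by
  induction k with
  | zero => exact length_idL
  | succ k ih =>
    unfold powL mulL
    rw [List.length_map, ih]

theorem X0_sum : (1 : Matrix I27 I27 K) + (X0 ω : Matrix I27 I27 K) + ((X0 ω ^ 2 : GL I27 K) : Matrix I27 I27 K) +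
    ((X0 ω ^ 3 : GL I27 K) : Matrix I27 I27 K) + ((X0 ω ^ 4 : GL I27 K) : Matrix I27 I27 K) = pr := by
  have hl : ∀ {A B : List RV}, A.length = 27 → B.length = 27 → (addL A B).length = 27 := by
    intro A B h1 h2
    unfold addL
    rw [List.length_zipWith, h1, h2]; rfl
  have l1 := length_idL
  have l2 := len_x0 hω
  have a1 := hl l1 l2
  have a2 := hl a1 (len_pow hω 2)
  have a3 := hl a2 (len_pow hω 3)
  rw [coe_X0_pow hω, coe_X0_pow hω, coe_X0_pow hω, coe_X0 hω, ← mt_e0L ω, ← eqL_sound sum_tab,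
    mt_addL (a3.trans (len_pow hω 4).symm), mt_addL (a2.trans (len_pow hω 3).symm), mt_addL (a1.trans (len_pow hω 2).symm),
    mt_addL (l1.trans l2.symm), mt_idL]

theorem pr_comm {M : GL I27 K} (hc : M * X0 ω = X0 ω * M) : (M : Matrix I27 I27 K) * pr = pr * (M : Matrix I27 I27 K) := by
  rw [← X0_sum hω]
  have hk : ∀ k, (M : Matrix I27 I27 K) * ((X0 ω ^ k : GL I27 K) : Matrix I27 I27 K) =
      ((X0 ω ^ k : GL I27 K) : Matrix I27 I27 K) * (M : Matrix I27 I27 K) := by
    intro k
    rw [← Units.val_mul, ← Units.val_mul, ((show Commute M (X0 ω) from hc).pow_right k).eq]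
  have h1 := hk 1
  rw [pow_one] at h1
  simp only [mul_add, add_mul, mul_one, one_mul, hk, h1]

theorem block {M : GL I27 K} (hc : M * X0 ω = X0 ω * M) {a j : ℕ} (ha : a < 27) (hj : j < 27) (h : ¬ (a ∈ S7 ↔ j ∈ S7)) :
    en' M a j = 0 := by
  have h1 := congrFun (congrFun (pr_comm hω hc) (dec a)) (dec j)
  unfold pr at h1
  rw [Matrix.mul_diagonal, Matrix.diagonal_mul, E6Rep.cod_dec a ha, E6Rep.cod_dec j hj] at h1
  change en' M a j * _ = _ * en' M a j at h1
  by_cases h2 : a ∈ S7 <;> by_cases h4 : j ∈ S7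
  · exact absurd (iff_of_true h2 h4) h
  · rw [if_pos h2, if_neg h4, mul_zero, one_mul] at h1; exact h1.symm
  · rw [if_neg h2, if_pos h4, zero_mul, mul_one] at h1; exact h1
  · exact absurd (iff_of_false h2 h4) h

omit hω [CharP K 2] in
theorem sup_iff {v : I27 → K} : Sup v ↔ pr *ᵥ v = v := by
  constructor
  · intro h
    apply ext27
    intro a ha
    unfold pr
    rw [Matrix.mulVec_diagonal, E6Rep.cod_dec a ha]
    by_cases h2 : a ∈ S7
    · rw [if_pos h2, one_mul]
    · rw [if_neg h2, zero_mul, h a ha h2]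
  · intro h a ha h2
    have h1 := congrFun h (dec a)
    unfold pr at h1
    rw [Matrix.mulVec_diagonal, E6Rep.cod_dec a ha, if_neg h2, zero_mul] at h1
    exact h1.symm

theorem sup_M {M : GL I27 K} (hc : M * X0 ω = X0 ω * M) {v : I27 → K} (hv : Sup v) : Sup ((M : Matrix I27 I27 K) *ᵥ v) := by
  rw [sup_iff] at hv ⊢
  rw [Matrix.mulVec_mulVec, ← pr_comm hω hc, ← Matrix.mulVec_mulVec, hv]

theorem comm_inv {M : GL I27 K} (hc : M * X0 ω = X0 ω * M) : M⁻¹ * X0 ω = X0 ω * M⁻¹ :=
  ((show Commute M (X0 ω) from hc).inv_left).eq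

variable (h3 : ∀ c : K, c ≠ 0 → c ^ 3 = 1) (hF : ∃ t : K, t ≠ 0 ∧ t ≠ 1)
include h3 hF

/-- the fixed point -/
theorem fix_line {M : GL I27 K} (hM : Pres M) (hc : M * X0 ω = X0 ω * M) : ∃ c : K, c ≠ 0 ∧ (M : Matrix I27 I27 K) *ᵥ ev 2 = c • ev 2 := by
  set y := (M : Matrix I27 I27 K) *ᵥ ev 2 with hy
  have hys : Sup y := sup_M hω hc (sup_ev (by decide))
  have hMi : ∀ v, (M : Matrix I27 I27 K) *ᵥ (((M⁻¹ : GL I27 K) : Matrix I27 I27 K) *ᵥ v) = v := by
    intro v
    rw [Matrix.mulVec_mulVec, ← Units.val_mul, mul_inv_cancel, Units.val_one, Matrix.one_mulVec]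
  have hiM : ∀ v, ((M⁻¹ : GL I27 K) : Matrix I27 I27 K) *ᵥ ((M : Matrix I27 I27 K) *ᵥ v) = v := by
    intro v
    rw [Matrix.mulVec_mulVec, ← Units.val_mul, inv_mul_cancel, Units.val_one, Matrix.one_mulVec]
  have e2 : (ev 2 : I27 → K) (dec 2) = 1 := by rw [ev_dec (by decide) (by decide)]; rfl
  have e4 : (ev 2 : I27 → K) (dec 4) = 0 := by rw [ev_dec (by decide) (by decide)]; rfl
  have e6 : (ev 2 : I27 → K) (dec 6) = 0 := by rw [ev_dec (by decide) (by decide)]; rfl
  have e16 : (ev 2 : I27 → K) (dec 16) = 0 := by rw [ev_dec (by decide) (by decide)]; rfl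
  have e17 : (ev 2 : I27 → K) (dec 17) = 0 := by rw [ev_dec (by decide) (by decide)]; rfl
  have e21 : (ev 2 : I27 → K) (dec 21) = 0 := by rw [ev_dec (by decide) (by decide)]; rfl
  have e24 : (ev 2 : I27 → K) (dec 24) = 0 := by rw [ev_dec (by decide) (by decide)]; rfl
  have hq2 : q6 (ev 2 : I27 → K) = 0 := by unfold q6; rw [e4, e16, e17]; ring
  have hb2 : ∀ w : I27 → K, b6 (ev 2) w = 0 := by intro w; unfold b6; rw [e4, e6, e16, e21, e17, e24]; ring
  have hDM := E6Rep.D_pres hF (E6Rep.mem_E6univ.2 hM.1)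
  have h1 : ∀ w : I27 → K, Sup w → w (dec 2) * q6 y + y (dec 2) * b6 y w = 0 := by
    intro w hw
    rw [← D_sup hys hw]
    have h4 := hDM (ev 2) (((M⁻¹ : GL I27 K) : Matrix I27 I27 K) *ᵥ w)
    rw [hMi, ← hy, D_sup (sup_ev (by decide)) (sup_M hω (comm_inv hω hc) hw), hq2, hb2, mul_zero, mul_zero, add_zero] at h4
    exact h4
  by_cases hy2 : y (dec 2) = 0
  · exfalso
    have h5 : ∀ v w : I27 → K, Sup v → Sup w → ((M : Matrix I27 I27 K) *ᵥ v) (dec 2) * b6 y ((M : Matrix I27 I27 K) *ᵥ w) +
        ((M : Matrix I27 I27 K) *ᵥ w) (dec 2) * b6 y ((M : Matrix I27 I27 K) *ᵥ v) = b6 v w := by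
      intro v w hv hw
      have h6 := f_pres' hF hM (ev 2) v w
      rw [← hy, f_sup hys (sup_M hω hc hv) (sup_M hω hc hw), f_sup (sup_ev (by decide)) hv hw, hy2, e2, hb2, hb2, mul_zero, mul_zero,
        add_zero, add_zero, one_mul, zero_mul, zero_add] at h6
      exact h6
    have k4_6 : b6 (ev 4 : I27 → K) (ev 6) = 1 := by
      unfold b6
      simp only [ev_dec (K := K) (show (4 : ℕ) < 27 by decide), ev_dec (K := K) (show (6 : ℕ) < 27 by decide), ev_dec (K := K) (show (16 : ℕ) < 27 by decide),
        ev_dec (K := K) (show (21 : ℕ) < 27 by decide), ev_dec (K := K) (show (17 : ℕ) < 27 by decide), ev_dec (K := K) (show (24 : ℕ) < 27 by decide),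
        show (4 : ℕ) < 27 by decide, show (6 : ℕ) < 27 by decide]
      simp
    have m4_6 := h5 (ev 4) (ev 6) (sup_ev (by decide)) (sup_ev (by decide))
    rw [k4_6] at m4_6
    have k4_16 : b6 (ev 4 : I27 → K) (ev 16) = 0 := by
      unfold b6
      simp only [ev_dec (K := K) (show (4 : ℕ) < 27 by decide), ev_dec (K := K) (show (6 : ℕ) < 27 by decide), ev_dec (K := K) (show (16 : ℕ) < 27 by decide),
        ev_dec (K := K) (show (21 : ℕ) < 27 by decide), ev_dec (K := K) (show (17 : ℕ) < 27 by decide), ev_dec (K := K) (show (24 : ℕ) < 27 by decide),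
        show (4 : ℕ) < 27 by decide, show (16 : ℕ) < 27 by decide]
      simp
    have m4_16 := h5 (ev 4) (ev 16) (sup_ev (by decide)) (sup_ev (by decide))
    rw [k4_16] at m4_16
    have k4_21 : b6 (ev 4 : I27 → K) (ev 21) = 0 := by
      unfold b6
      simp only [ev_dec (K := K) (show (4 : ℕ) < 27 by decide), ev_dec (K := K) (show (6 : ℕ) < 27 by decide), ev_dec (K := K) (show (16 : ℕ) < 27 by decide),
        ev_dec (K := K) (show (21 : ℕ) < 27 by decide), ev_dec (K := K) (show (17 : ℕ) < 27 by decide), ev_dec (K := K) (show (24 : ℕ) < 27 by decide),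
        show (4 : ℕ) < 27 by decide, show (21 : ℕ) < 27 by decide]
      simp
    have m4_21 := h5 (ev 4) (ev 21) (sup_ev (by decide)) (sup_ev (by decide))
    rw [k4_21] at m4_21
    have k6_16 : b6 (ev 6 : I27 → K) (ev 16) = 0 := by
      unfold b6
      simp only [ev_dec (K := K) (show (4 : ℕ) < 27 by decide), ev_dec (K := K) (show (6 : ℕ) < 27 by decide), ev_dec (K := K) (show (16 : ℕ) < 27 by decide),
        ev_dec (K := K) (show (21 : ℕ) < 27 by decide), ev_dec (K := K) (show (17 : ℕ) < 27 by decide), ev_dec (K := K) (show (24 : ℕ) < 27 by decide),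
        show (6 : ℕ) < 27 by decide, show (16 : ℕ) < 27 by decide]
      simp
    have m6_16 := h5 (ev 6) (ev 16) (sup_ev (by decide)) (sup_ev (by decide))
    rw [k6_16] at m6_16
    have k6_21 : b6 (ev 6 : I27 → K) (ev 21) = 0 := by
      unfold b6
      simp only [ev_dec (K := K) (show (4 : ℕ) < 27 by decide), ev_dec (K := K) (show (6 : ℕ) < 27 by decide), ev_dec (K := K) (show (16 : ℕ) < 27 by decide),
        ev_dec (K := K) (show (21 : ℕ) < 27 by decide), ev_dec (K := K) (show (17 : ℕ) < 27 by decide), ev_dec (K := K) (show (24 : ℕ) < 27 by decide),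
        show (6 : ℕ) < 27 by decide, show (21 : ℕ) < 27 by decide]
      simp
    have m6_21 := h5 (ev 6) (ev 21) (sup_ev (by decide)) (sup_ev (by decide))
    rw [k6_21] at m6_21
    have k16_21 : b6 (ev 16 : I27 → K) (ev 21) = 1 := by
      unfold b6
      simp only [ev_dec (K := K) (show (4 : ℕ) < 27 by decide), ev_dec (K := K) (show (6 : ℕ) < 27 by decide), ev_dec (K := K) (show (16 : ℕ) < 27 by decide),
        ev_dec (K := K) (show (21 : ℕ) < 27 by decide), ev_dec (K := K) (show (17 : ℕ) < 27 by decide), ev_dec (K := K) (show (24 : ℕ) < 27 by decide),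
        show (16 : ℕ) < 27 by decide, show (21 : ℕ) < 27 by decide]
      simp
    have m16_21 := h5 (ev 16) (ev 21) (sup_ev (by decide)) (sup_ev (by decide))
    rw [k16_21] at m16_21
    set p4 := ((M : Matrix I27 I27 K) *ᵥ ev 4) (dec 2)
    set r4 := b6 y ((M : Matrix I27 I27 K) *ᵥ ev 4)
    set p6 := ((M : Matrix I27 I27 K) *ᵥ ev 6) (dec 2)
    set r6 := b6 y ((M : Matrix I27 I27 K) *ᵥ ev 6)
    set p16 := ((M : Matrix I27 I27 K) *ᵥ ev 16) (dec 2)
    set r16 := b6 y ((M : Matrix I27 I27 K) *ᵥ ev 16)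
    set p21 := ((M : Matrix I27 I27 K) *ᵥ ev 21) (dec 2)
    set r21 := b6 y ((M : Matrix I27 I27 K) *ᵥ ev 21)
    have h2 : (2 : K) = 0 := CharTwo.two_eq_zero
    have : (1 : K) = 0 := by
      linear_combination (p4 * p16 * r6 * r21 + p4 * p21 * r6 * r16 + p6 * p16 * r4 * r21 + p6 * p21 * r4 * r16 + p4 * p6 * r16 * r21 +
        p16 * p21 * r4 * r6) * h2 - (p6 * r21 + p21 * r6) * m4_16 - (p6 * r16 + p16 * r6) * m4_21 - (p16 * r21 + p21 * r16) * m4_6 - m16_21
    exact one_ne_zero this
  · refine ⟨y (dec 2), hy2, ?_⟩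
    have z4 : y (dec 4) = 0 := by
      have h4 := h1 (ev 6) (sup_ev (by decide))
      unfold b6 at h4
      simp only [ev_dec (K := K) (show (4 : ℕ) < 27 by decide), ev_dec (K := K) (show (6 : ℕ) < 27 by decide), ev_dec (K := K) (show (16 : ℕ) < 27 by decide),
        ev_dec (K := K) (show (21 : ℕ) < 27 by decide), ev_dec (K := K) (show (17 : ℕ) < 27 by decide), ev_dec (K := K) (show (24 : ℕ) < 27 by decide),
        ev_dec (K := K) (show (2 : ℕ) < 27 by decide), show (6 : ℕ) < 27 by decide] at h4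
      simp at h4
      exact h4.resolve_left hy2
    have z6 : y (dec 6) = 0 := by
      have h4 := h1 (ev 4) (sup_ev (by decide))
      unfold b6 at h4
      simp only [ev_dec (K := K) (show (4 : ℕ) < 27 by decide), ev_dec (K := K) (show (6 : ℕ) < 27 by decide), ev_dec (K := K) (show (16 : ℕ) < 27 by decide),
        ev_dec (K := K) (show (21 : ℕ) < 27 by decide), ev_dec (K := K) (show (17 : ℕ) < 27 by decide), ev_dec (K := K) (show (24 : ℕ) < 27 by decide),
        ev_dec (K := K) (show (2 : ℕ) < 27 by decide), show (4 : ℕ) < 27 by decide] at h4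
      simp at h4
      exact h4.resolve_left hy2
    have z16 : y (dec 16) = 0 := by
      have h4 := h1 (ev 21) (sup_ev (by decide))
      unfold b6 at h4
      simp only [ev_dec (K := K) (show (4 : ℕ) < 27 by decide), ev_dec (K := K) (show (6 : ℕ) < 27 by decide), ev_dec (K := K) (show (16 : ℕ) < 27 by decide),
        ev_dec (K := K) (show (21 : ℕ) < 27 by decide), ev_dec (K := K) (show (17 : ℕ) < 27 by decide), ev_dec (K := K) (show (24 : ℕ) < 27 by decide),
        ev_dec (K := K) (show (2 : ℕ) < 27 by decide), show (21 : ℕ) < 27 by decide] at h4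
      simp at h4
      exact h4.resolve_left hy2
    have z21 : y (dec 21) = 0 := by
      have h4 := h1 (ev 16) (sup_ev (by decide))
      unfold b6 at h4
      simp only [ev_dec (K := K) (show (4 : ℕ) < 27 by decide), ev_dec (K := K) (show (6 : ℕ) < 27 by decide), ev_dec (K := K) (show (16 : ℕ) < 27 by decide),
        ev_dec (K := K) (show (21 : ℕ) < 27 by decide), ev_dec (K := K) (show (17 : ℕ) < 27 by decide), ev_dec (K := K) (show (24 : ℕ) < 27 by decide),
        ev_dec (K := K) (show (2 : ℕ) < 27 by decide), show (16 : ℕ) < 27 by decide] at h4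
      simp at h4
      exact h4.resolve_left hy2
    have z17 : y (dec 17) = 0 := by
      have h4 := h1 (ev 24) (sup_ev (by decide))
      unfold b6 at h4
      simp only [ev_dec (K := K) (show (4 : ℕ) < 27 by decide), ev_dec (K := K) (show (6 : ℕ) < 27 by decide), ev_dec (K := K) (show (16 : ℕ) < 27 by decide),
        ev_dec (K := K) (show (21 : ℕ) < 27 by decide), ev_dec (K := K) (show (17 : ℕ) < 27 by decide), ev_dec (K := K) (show (24 : ℕ) < 27 by decide),
        ev_dec (K := K) (show (2 : ℕ) < 27 by decide), show (24 : ℕ) < 27 by decide] at h4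
      simp at h4
      exact h4.resolve_left hy2
    have z24 : y (dec 24) = 0 := by
      have h4 := h1 (ev 17) (sup_ev (by decide))
      unfold b6 at h4
      simp only [ev_dec (K := K) (show (4 : ℕ) < 27 by decide), ev_dec (K := K) (show (6 : ℕ) < 27 by decide), ev_dec (K := K) (show (16 : ℕ) < 27 by decide),
        ev_dec (K := K) (show (21 : ℕ) < 27 by decide), ev_dec (K := K) (show (17 : ℕ) < 27 by decide), ev_dec (K := K) (show (24 : ℕ) < 27 by decide),
        ev_dec (K := K) (show (2 : ℕ) < 27 by decide), show (17 : ℕ) < 27 by decide] at h4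
      simp at h4
      exact h4.resolve_left hy2
    apply ext27
    intro a ha
    rw [Pi.smul_apply, smul_eq_mul, ev_dec ha (by decide)]
    by_cases h : a ∈ S7
    · simp only [S7, List.mem_cons, List.not_mem_nil, or_false] at h
      rcases h with rfl | rfl | rfl | rfl | rfl | rfl | rfl
      · rw [if_pos rfl, mul_one]
      · rw [z4, if_neg (by decide), mul_zero]
      · rw [z6, if_neg (by decide), mul_zero]
      · rw [z16, if_neg (by decide), mul_zero]
      · rw [z17, if_neg (by decide), mul_zero]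
      · rw [z21, if_neg (by decide), mul_zero]
      · rw [z24, if_neg (by decide), mul_zero]
    · rw [hys a ha h, if_neg, mul_zero]
      rintro rfl
      exact h (by decide)

omit h3 hF hω in
/-- vectors in the moved space -/
def vec (α β γ δ : K) : I27 → K := α • ev 3 + β • ev 7 + γ • ev 15 + δ • ev 18

omit [CharP K 2] h3 hF hω in
theorem vec_dec {α β γ δ : K} {a : ℕ} (ha : a < 27) : vec α β γ δ (dec a) =
    if a = 3 then α else if a = 7 then β else if a = 15 then γ else if a = 18 then δ else 0 := by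
  unfold vec
  simp only [Pi.add_apply, Pi.smul_apply, smul_eq_mul]
  rw [ev_dec ha (by decide), ev_dec ha (by decide), ev_dec ha (by decide), ev_dec ha (by decide)]
  by_cases h1 : a = 3
  · subst h1; simp
  by_cases h2 : a = 7
  · subst h2; simp
  by_cases h4 : a = 15
  · subst h4; simp
  by_cases h5 : a = 18
  · subst h5; simp
  simp [h1, h2, h4, h5]

/-- codes of the orbit -/
def cc (k : ℕ) : List (Bool × Bool) := [[(true, false), (false, false), (false, false), (false, false)],
  [(true, false), (true, false), (true, false), (true, false)], [(true, false), (true, false), (false, true), (true, true)],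
  [(false, false), (true, false), (false, false), (false, false)], [(true, false), (true, false), (true, true), (false, true)]].getD k []

def colb (k a : ℕ) : Bool × Bool := if a = 3 then (cc k).getD 0 (false, false) else if a = 7 then (cc k).getD 1 (false, false)
  else if a = 15 then (cc k).getD 2 (false, false) else if a = 18 then (cc k).getD 3 (false, false) else (false, false)

omit h3 hF hω in
theorem colTab : ∀ k < 5, ∀ a < 27, (((powL x0L k).getD a (0, 0)).1.testBit 3, ((powL x0L k).getD a (0, 0)).2.testBit 3) = colb k a := by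
  decide +kernel

/-- value of a code -/
def cb (ω : K) (c : Bool × Bool) : K := (if c.1 then 1 else 0) + ω * (if c.2 then 1 else 0)

omit h3 hF in
theorem X0_col {k : ℕ} (hk : k < 5) {a : ℕ} (ha : a < 27) : (((X0 ω ^ k : GL I27 K) : Matrix I27 I27 K) *ᵥ ev 3) (dec a) = cb ω (colb k a) := by
  have h := colTab k hk a ha
  rw [← h]
  have h1 : (((X0 ω ^ k : GL I27 K) : Matrix I27 I27 K) *ᵥ ev 3) (dec a) = ((X0 ω ^ k : GL I27 K) : Matrix I27 I27 K) (dec a) (dec 3) := by
    rw [← en'_eq]; rfl
  rw [h1, coe_X0_pow hω]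
  change gt ω (powL x0L k) (cod (dec a)) (cod (dec 3)) = _
  rw [E6Rep.cod_dec a ha, E6Rep.cod_dec 3 (by decide)]
  rfl

omit h3 hF in
theorem X0_vec {k : ℕ} (hk : k < 5) : ((X0 ω ^ k : GL I27 K) : Matrix I27 I27 K) *ᵥ ev 3 =
    vec (cb ω ((cc k).getD 0 (false, false))) (cb ω ((cc k).getD 1 (false, false))) (cb ω ((cc k).getD 2 (false, false)))
      (cb ω ((cc k).getD 3 (false, false))) := by
  apply ext27
  intro a ha
  rw [X0_col hω hk ha, vec_dec ha]
  have h0 : cb ω (false, false) = 0 := by simp [cb]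
  unfold colb
  split_ifs <;> first | rfl | exact h0

omit h3 hF in
theorem X0_fix2 : ((X0 ω : GL I27 K) : Matrix I27 I27 K) *ᵥ ev 2 = ev 2 := by
  apply ext27
  intro a ha
  have h1 : ((X0 ω : Matrix I27 I27 K) *ᵥ ev 2) (dec a) = (X0 ω : Matrix I27 I27 K) (dec a) (dec 2) := by
    rw [← en'_eq]; rfl
  rw [h1, coe_X0 hω]
  change gt ω x0L (cod (dec a)) (cod (dec 2)) = _
  rw [E6Rep.cod_dec a ha, E6Rep.cod_dec 2 (by decide), ev_dec ha (by decide)]
  have h2 : ∀ a < 27, ((x0L.getD a (0, 0)).1.testBit 2, (x0L.getD a (0, 0)).2.testBit 2) = (decide (a = 2), false) := by decide +kernel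
  have h4 := h2 a ha
  rw [Prod.mk.injEq] at h4
  unfold gt sv bt
  rw [h4.1, h4.2]
  by_cases h : a = 2 <;> simp [h]

omit hω h3 hF in
theorem sq01 {x : K} (h : x ^ 2 = x) : x = 0 ∨ x = 1 := by
  have : x * (x - 1) = 0 := by linear_combination h
  rcases mul_eq_zero.1 this with h1 | h1
  · exact Or.inl h1
  · exact Or.inr (sub_eq_zero.1 h1)

omit hω hF in
theorem y_supp : ∀ a < 27, a ∈ [3, 7, 15, 18] ∨ a ∈ S7 ∨ sep [2] a 3 = true := by decide +kernel

theorem fix_e3 {M : GL I27 K} (hM : Pres M) (hc : M * X0 ω = X0 ω * M) (h2 : Fx M 2) :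
    ∃ k < 5, (M : Matrix I27 I27 K) *ᵥ ev 3 = ((X0 ω ^ k : GL I27 K) : Matrix I27 I27 K) *ᵥ ev 3 := by
  have hz : ∀ a < 27, a ∉ [3, 7, 15, 18] → en' M a 3 = 0 := by
    intro a ha ha2
    rcases y_supp h3 a ha with h | h | h
    · exact absurd h ha2
    · exact block hω hc ha (by decide) (by
        intro h5
        have : 3 ∈ S7 := h5.1 h
        exact absurd this (by decide))
    · refine sep_zero h3 hF hM (L := [2]) ?_ ha (by decide) h
      intro n hn
      rw [List.mem_singleton] at hn
      subst hn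
      exact ⟨by decide, h2⟩
  have r3 : en' M 3 3 ^ 2 = en' M 3 3 := R2 h3 hF hM (n := 2) (by decide) h2 (by decide) (by decide) (by decide +kernel) (by decide +kernel)
  have r7 : en' M 7 3 ^ 2 = en' M 7 3 := R2 h3 hF hM (n := 2) (by decide) h2 (by decide) (by decide) (by decide +kernel) (by decide +kernel)
  have r15 : en' M 15 3 ^ 2 = en' M 18 3 := R2 h3 hF hM (n := 2) (by decide) h2 (by decide) (by decide) (by decide +kernel) (by decide +kernel)
  have hD := E6Rep.D_pres hF (E6Rep.mem_E6univ.2 hM.1) (ev 3) (ev 2)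
  rw [show (M : Matrix I27 I27 K) *ᵥ ev 2 = ev 2 from h2, D_ev2, D_ev2, ← en'_eq, ← en'_eq, ← en'_eq, ← en'_eq, ← en'_eq, ← en'_eq,
    ← en'_eq, ← en'_eq, ← en'_eq, ← en'_eq, hz 4 (by decide) (by decide), hz 16 (by decide) (by decide), hz 17 (by decide) (by decide)] at hD
  simp only [ev_dec (K := K) (show (3 : ℕ) < 27 by decide), ev_dec (K := K) (show (7 : ℕ) < 27 by decide), ev_dec (K := K) (show (4 : ℕ) < 27 by decide),
    ev_dec (K := K) (show (6 : ℕ) < 27 by decide), ev_dec (K := K) (show (15 : ℕ) < 27 by decide), ev_dec (K := K) (show (18 : ℕ) < 27 by decide),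
    ev_dec (K := K) (show (16 : ℕ) < 27 by decide), ev_dec (K := K) (show (21 : ℕ) < 27 by decide), ev_dec (K := K) (show (17 : ℕ) < 27 by decide),
    ev_dec (K := K) (show (24 : ℕ) < 27 by decide), show (3 : ℕ) < 27 by decide] at hD
  simp at hD
  have hvec : (M : Matrix I27 I27 K) *ᵥ ev 3 = vec (en' M 3 3) (en' M 7 3) (en' M 15 3) (en' M 18 3) := by
    apply ext27
    intro a ha
    rw [vec_dec ha, ← en'_eq]
    by_cases h1 : a = 3
    · subst h1; simp
    by_cases h2 : a = 7
    · subst h2; simp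
    by_cases h4 : a = 15
    · subst h4; simp
    by_cases h5 : a = 18
    · subst h5; simp
    rw [if_neg h1, if_neg h2, if_neg h4, if_neg h5]
    exact hz a ha (by simp [h1, h2, h4, h5])
  have hne : (M : Matrix I27 I27 K) *ᵥ ev 3 ≠ 0 := by
    intro h
    have h4 := congrArg (fun v => ((M⁻¹ : GL I27 K) : Matrix I27 I27 K) *ᵥ v) h
    beta_reduce at h4
    rw [Matrix.mulVec_mulVec, ← Units.val_mul, inv_mul_cancel, Units.val_one, Matrix.one_mulVec, Matrix.mulVec_zero] at h4
    have h5 := congrFun h4 (dec 3)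
    rw [ev_dec (by decide) (by decide)] at h5
    simp at h5
  rw [← r15] at hvec
  rw [← r15] at hD
  set α := en' M 3 3
  set β := en' M 7 3
  set γ := en' M 15 3
  have hcase : (γ = 0 ∧ ((α = 1 ∧ β = 0) ∨ (α = 0 ∧ β = 1))) ∨ (α = 1 ∧ β = 1 ∧ (γ = 1 ∨ γ = ω ∨ γ = 1 + ω)) := by
    by_cases hγ : γ = 0
    · left
      refine ⟨hγ, ?_⟩
      rcases sq01 r3 with h1 | h1 <;> rcases sq01 r7 with h4 | h4
      · exfalso
        apply hne
        rw [hvec, h1, h4, hγ]
        apply ext27
        intro a ha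
        rw [vec_dec ha]
        simp
      · exact Or.inr ⟨h1, h4⟩
      · exact Or.inl ⟨h1, h4⟩
      · exfalso
        rw [h1, h4, hγ] at hD
        simp at hD
    · right
      have h5 : γ ^ 3 = 1 := h3 γ hγ
      have h6 : α * β = 1 := by
        have h2' : (2 : K) = 0 := CharTwo.two_eq_zero
        linear_combination hD - h5 - h2'
      rcases sq01 r3 with h1 | h1 <;> rcases sq01 r7 with h4 | h4
      · rw [h1, h4] at h6; simp at h6
      · rw [h1, h4] at h6; simp at h6
      · rw [h1, h4] at h6; simp at h6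
      · refine ⟨h1, h4, ?_⟩
        have h2' : (2 : K) = 0 := CharTwo.two_eq_zero
        have h7 : (γ - 1) * ((γ - ω) * (γ - (1 + ω))) = 0 := by
          linear_combination h5 + (γ - 1) * hω - (γ ^ 2 * (1 + ω)) * h2' + (γ * (2 * ω + 1)) * h2' - (ω + 1) * h2' + h2'
        rcases mul_eq_zero.1 h7 with h8 | h8
        · exact Or.inl (sub_eq_zero.1 h8)
        · rcases mul_eq_zero.1 h8 with h8 | h8
          · exact Or.inr (Or.inl (sub_eq_zero.1 h8))
          · exact Or.inr (Or.inr (sub_eq_zero.1 h8))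
  have hw2 : (1 + ω) ^ 2 = ω := by
    have h2' : (2 : K) = 0 := CharTwo.two_eq_zero
    linear_combination hω + (1 + ω) * h2'
  rcases hcase with ⟨h4, ⟨h5, h6⟩ | ⟨h5, h6⟩⟩ | ⟨h5, h6, h4 | h4 | h4⟩
  · refine ⟨0, by decide, ?_⟩
    rw [hvec, X0_vec hω (by decide), h4, h5, h6]
    simp [cc, cb]
  · refine ⟨3, by decide, ?_⟩
    rw [hvec, X0_vec hω (by decide), h4, h5, h6]
    simp [cc, cb]
  · refine ⟨1, by decide, ?_⟩
    rw [hvec, X0_vec hω (by decide), h4, h5, h6]
    simp [cc, cb]
  · refine ⟨2, by decide, ?_⟩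
    rw [hvec, X0_vec hω (by decide), h4, h5, h6, hω]
    simp [cc, cb, add_comm]
  · refine ⟨4, by decide, ?_⟩
    rw [hvec, X0_vec hω (by decide), h4, h5, h6, hw2]
    simp [cc, cb]

/-- fixing two vectors and commuting with the element of order five -/
theorem fx_all {M : GL I27 K} (hc : M * X0 ω = X0 ω * M) (h2 : Fx M 2) (h4 : Fx M 3) : ∀ n ∈ F5, Fx M n := by
  have hk : ∀ k, (M : Matrix I27 I27 K) *ᵥ (((X0 ω ^ k : GL I27 K) : Matrix I27 I27 K) *ᵥ ev 3) =
      ((X0 ω ^ k : GL I27 K) : Matrix I27 I27 K) *ᵥ ev 3 := by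
    intro k
    rw [Matrix.mulVec_mulVec, ← Units.val_mul, ((show Commute M (X0 ω) from hc).pow_right k).eq, Units.val_mul, ← Matrix.mulVec_mulVec,
      show (M : Matrix I27 I27 K) *ᵥ ev 3 = ev 3 from h4]
  have k3 := hk 3
  have k1 := hk 1
  have k2 := hk 2
  rw [X0_vec hω (by decide)] at k1 k2 k3
  have h2' : (2 : K) = 0 := CharTwo.two_eq_zero
  have c1 : cb ω (true, false) = 1 := by simp [cb]
  have c0 : cb ω (false, false) = 0 := by simp [cb]
  have cw : cb ω (false, true) = ω := by simp [cb]
  have cw2 : cb ω (true, true) = 1 + ω := by simp [cb]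
  have e7 : Fx M 7 := by
    have : vec (cb ω ((cc 3).getD 0 (false, false))) (cb ω ((cc 3).getD 1 (false, false))) (cb ω ((cc 3).getD 2 (false, false)))
      (cb ω ((cc 3).getD 3 (false, false))) = ev 7 := by
      change vec (cb ω (false, false)) (cb ω (true, false)) (cb ω (false, false)) (cb ω (false, false)) = _
      rw [c1, c0]
      unfold vec
      simp
    rw [this] at k3
    exact k3
  change (M : Matrix I27 I27 K) *ᵥ vec (cb ω (true, false)) (cb ω (true, false)) (cb ω (true, false)) (cb ω (true, false)) =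
    vec (cb ω (true, false)) (cb ω (true, false)) (cb ω (true, false)) (cb ω (true, false)) at k1
  change (M : Matrix I27 I27 K) *ᵥ vec (cb ω (true, false)) (cb ω (true, false)) (cb ω (false, true)) (cb ω (true, true)) =
    vec (cb ω (true, false)) (cb ω (true, false)) (cb ω (false, true)) (cb ω (true, true)) at k2
  rw [c1] at k1
  rw [c1, cw, cw2] at k2
  unfold vec at k1 k2
  simp only [Matrix.mulVec_add, Matrix.mulVec_smul] at k1 k2
  rw [show (M : Matrix I27 I27 K) *ᵥ ev 3 = ev 3 from h4, show (M : Matrix I27 I27 K) *ᵥ ev 7 = ev 7 from e7] at k1 k2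
  have hcan : ∀ (a b c d a' : I27 → K), a + b + c + d = a + b + a' → True := fun _ _ _ _ _ _ => trivial
  have j1 : (M : Matrix I27 I27 K) *ᵥ ev 15 + (M : Matrix I27 I27 K) *ᵥ ev 18 = ev 15 + ev 18 := by
    have : (M : Matrix I27 I27 K) *ᵥ ev 15 + (M : Matrix I27 I27 K) *ᵥ ev 18 - (ev 15 + ev 18) = 0 := by
      have := sub_eq_zero.2 k1
      rw [← this]
      module
    exact sub_eq_zero.1 this
  have j2 : ω • ((M : Matrix I27 I27 K) *ᵥ ev 15) + (1 + ω) • ((M : Matrix I27 I27 K) *ᵥ ev 18) = ω • ev 15 + (1 + ω) • ev 18 := by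
    have : ω • ((M : Matrix I27 I27 K) *ᵥ ev 15) + (1 + ω) • ((M : Matrix I27 I27 K) *ᵥ ev 18) - (ω • ev 15 + (1 + ω) • ev 18) = 0 := by
      have := sub_eq_zero.2 k2
      rw [← this]
      module
    exact sub_eq_zero.1 this
  have e15 : Fx M 15 := by
    unfold Fx
    apply ext27
    intro a ha
    have a1 := congrFun j1 (dec a)
    have a2 := congrFun j2 (dec a)
    simp only [Pi.add_apply, Pi.smul_apply, smul_eq_mul] at a1 a2
    linear_combination (1 + ω) * a1 + a2 - (ω * (((M : Matrix I27 I27 K) *ᵥ ev 15) (dec a)) + (1 + ω) * (((M : Matrix I27 I27 K) *ᵥ ev 18) (dec a)) -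
      ω * (ev 15 : I27 → K) (dec a) - (1 + ω) * (ev 18 : I27 → K) (dec a)) * h2'
  have e18 : Fx M 18 := by
    unfold Fx at e15 ⊢
    rw [e15] at j1
    exact add_left_cancel j1
  intro n hn
  simp only [F5, List.mem_cons, List.not_mem_nil, or_false] at hn
  rcases hn with rfl | rfl | rfl | rfl | rfl
  · exact h2
  · exact h4
  · exact e7
  · exact e15
  · exact e18


end

end Cfsg.Agent.Lib.E6O
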