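import Cfsg.Agent.Lib.E6OC
set_option autoImplicit false
set_option linter.unusedSectionVars false
set_option linter.unusedVariables false
set_option linter.style.haveILetI false

/-!
Decomposition of the centralizer of an element of order five; membership in `2E6(2)`.
-/

namespace Cfsg.Agent.Lib.E6O
open Cfsg.Lie Cfsg.Agent.Lib.F4Mat Cfsg.Agent.Lib.E6Pair Cfsg.Agent.Lib.ChevRel Cfsg.Agent.Lib.E6F4A
open Cfsg.Agent.Lib.E6Rep (dec cod f thz val D T X)
open scoped MatrixGroups Matrix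

universe u

section
variable {K : Type u} [Field K]

/-- scalar matrices -/
def sc (c : Kˣ) : GL I27 K where
  val := (c : K) • 1
  inv := ((c⁻¹ : Kˣ) : K) • 1
  val_inv := by rw [smul_mul_smul_comm, mul_one, ← Units.val_mul, mul_inv_cancel, Units.val_one, one_smul]
  inv_val := by rw [smul_mul_smul_comm, mul_one, ← Units.val_mul, inv_mul_cancel, Units.val_one, one_smul]

theorem sc_mulVec (c : Kˣ) (v : I27 → K) : (sc c : Matrix I27 I27 K) *ᵥ v = (c : K) • v := by
  change ((c : K) • (1 : Matrix I27 I27 K)) *ᵥ v = _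
  rw [Matrix.smul_mulVec, Matrix.one_mulVec]

theorem sc_comm (c : Kˣ) (M : GL I27 K) : sc c * M = M * sc c := by
  apply Units.ext
  change ((c : K) • (1 : Matrix I27 I27 K)) * _ = _ * ((c : K) • (1 : Matrix I27 I27 K))
  rw [smul_mul_assoc, mul_smul_comm, one_mul, mul_one]

theorem sc_mul (c d : Kˣ) : (sc c : GL I27 K) * sc d = sc (c * d) := by
  apply Units.ext
  change ((c : K) • (1 : Matrix I27 I27 K)) * ((d : K) • (1 : Matrix I27 I27 K)) = ((c * d : Kˣ) : K) • (1 : Matrix I27 I27 K)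
  rw [smul_mul_smul_comm, mul_one, Units.val_mul]

theorem sc_one : (sc 1 : GL I27 K) = 1 := by
  apply Units.ext
  change ((1 : Kˣ) : K) • (1 : Matrix I27 I27 K) = 1
  rw [Units.val_one, one_smul]

theorem T_smul (c : K) (v : I27 → K) : T (c • v) = c ^ 3 * T v := by
  simp only [T, E6Rep.TL, E6Rep.mono, List.map_cons, List.map_nil, List.sum_cons, List.sum_nil, Pi.smul_apply, smul_eq_mul]
  ring

variable [CharP K 2]

theorem pres_sc (h3 : ∀ c : K, c ≠ 0 → c ^ 3 = 1) (c : Kˣ) : Pres (sc c : GL I27 K) := by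
  constructor
  · intro v
    rw [sc_mulVec, T_smul, h3 _ c.ne_zero, one_mul]
  · intro u v
    rw [sc_mulVec, sc_mulVec, hf_smul_left, hf_smul_right, ← mul_assoc, ← pow_succ', h3 _ c.ne_zero, one_mul]

/-! ### words -/

/-- the word of a block -/
def eb (b : ℕ × ℕ × RV) : List (ℕ × RV) := bif Nat.beq b.1 b.2.1 then [(b.1, b.2.2)] else [(b.1, b.2.2), (b.2.1, sqc b.2.2)]

omit [CharP K 2] in
theorem wb_cons (b : ℕ × ℕ × RV) (l : List (ℕ × ℕ × RV)) : wb (b :: l) = eb b ++ wb l := rfl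

/-- the check of a block -/
def okB (b : ℕ × ℕ × RV) : Bool := (tm.any fun x => Nat.beq x.1 b.1 && Nat.beq x.2.1 b.2.1) &&
  ((!(Nat.beq b.1 b.2.1) || (Nat.beq b.2.2.1 1 && Nat.beq b.2.2.2 0)) && (Nat.blt b.2.2.1 2 && Nat.blt b.2.2.2 2))

def tabB (x : ℕ × ℕ × List ℕ) : Bool := x.2.2.all (fun j => Nat.blt j 4) && (bif Nat.beq x.1 x.2.1 then
    (dualOk x.1 x.1 && Nat.beq ((x.2.2.flatMap E6Fi22.blk).foldr (fun (i : Fin chevE6.rank) (r : ℕ) => chevE6.reflectRoot i r) 39) x.1)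
  else (dualOk x.1 x.2.1 && (dualOk x.2.1 x.1 && (!(Nat.beq x.2.1 (chevE6.neg x.1)) && ((chevE6.commTerms x.1 x.2.1).isEmpty &&
    (Nat.beq ((x.2.2.flatMap E6Fi22.blk).foldr (fun (i : Fin chevE6.rank) (r : ℕ) => chevE6.reflectRoot i r) 56) x.1 &&
    Nat.beq ((x.2.2.flatMap E6Fi22.blk).foldr (fun (i : Fin chevE6.rank) (r : ℕ) => chevE6.reflectRoot i r) 36) x.2.1))))))

set_option maxRecDepth 100000 in
theorem tabB_ok : (tm.all tabB) = true := by decide +kernel

variable {ω : K} (hω : ω ^ 2 = ω + 1)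
include hω

theorem cv_sqc {c : RV} (h1 : c.1 < 2) (h2 : c.2 < 2) : cv ω (sqc c) = cv ω c ^ 2 := by
  obtain ⟨a, b⟩ := c
  have h2' : (2 : K) = 0 := CharTwo.two_eq_zero
  change a < 2 at h1
  change b < 2 at h2
  unfold cv sqc
  interval_cases a <;> interval_cases b
  · simp
  · simp; linear_combination -hω
  · simp
  · simp; linear_combination -hω - (ω + 1) * h2'

variable (h3 : ∀ c : K, c ≠ 0 → c ^ 3 = 1)
include h3

theorem blk_ok {b : ℕ × ℕ × RV} (h : okB b = true) : wg chevE6 K (evw ω (eb b)) ∈ twistedE6 K 2 ∧ Pres (Xw (evw ω (eb b))) ∧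
    ∀ p ∈ evw ω (eb b), p.1 < chevE6.nroots := by
  obtain ⟨r, s, c⟩ := b
  unfold okB at h
  rw [Bool.and_eq_true, Bool.and_eq_true, Bool.and_eq_true] at h
  obtain ⟨h1, h2, hc1, hc2⟩ := h
  have hd1 : c.1 < 2 := Nat.le_of_ble_eq_true hc1
  have hd2 : c.2 < 2 := Nat.le_of_ble_eq_true hc2
  rw [List.any_eq_true] at h1
  obtain ⟨⟨r', s', L⟩, hx, h1⟩ := h1
  rw [Bool.and_eq_true] at h1
  have e1 : r' = r := Nat.eq_of_beq_eq_true h1.1
  have e2 : s' = s := Nat.eq_of_beq_eq_true h1.2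
  subst e1 e2
  have ht := tabB_ok
  rw [List.all_eq_true] at ht
  have ht := ht _ hx
  unfold tabB at ht
  rw [Bool.and_eq_true] at ht
  obtain ⟨hL, ht⟩ := ht
  have hL' : ∀ j ∈ L, j < 4 := by
    rw [List.all_eq_true] at hL
    intro j hj
    exact Nat.le_of_ble_eq_true (hL j hj)
  by_cases hrs : r' = s'
  · subst hrs
    have hb : Nat.beq r' r' = true := Nat.beq_refl r'
    have heb : eb (r', r', c) = [(r', c)] := by unfold eb; rw [hb]; rfl
    change (bif Nat.beq r' r' then _ else _) = true at ht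
    rw [hb, cond_true, Bool.and_eq_true] at ht
    change (!(Nat.beq r' r') || (Nat.beq c.1 1 && Nat.beq c.2 0)) = true at h2
    rw [hb, Bool.not_true, Bool.false_or, Bool.and_eq_true] at h2
    have hcv : cv ω c = 1 := by
      unfold cv
      rw [Nat.eq_of_beq_eq_true h2.1, Nat.eq_of_beq_eq_true h2.2]; simp
    have hw : evw ω (eb (r', r', c)) = [(r', 1)] := by rw [heb]; simp [evw, hcv]
    have hr : r' < 72 := by
      have := ht.1
      unfold dualOk at this
      rw [Bool.and_eq_true] at this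
      exact Nat.le_of_ble_eq_true this.1
    rw [hw]
    refine ⟨E6Fi22.fix_mem L hL' (Nat.eq_of_beq_eq_true ht.2), ?_, ?_⟩
    · have : Xw [(r', (1 : K))] = X K r' 1 := by simp [Xw]
      rw [this]
      exact pres_fix h3 ht.1 (one_pow 2)
    · intro p hp
      rw [List.mem_singleton] at hp
      subst hp
      exact hr
  · have hb : Nat.beq r' s' = false := by
      by_contra hcon
      rw [Bool.not_eq_false] at hcon
      exact hrs (Nat.eq_of_beq_eq_true hcon)
    have heb : eb (r', s', c) = [(r', c), (s', sqc c)] := by unfold eb; rw [hb]; rfl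
    change (bif Nat.beq r' s' then _ else _) = true at ht
    rw [hb, cond_false, Bool.and_eq_true, Bool.and_eq_true, Bool.and_eq_true, Bool.and_eq_true, Bool.and_eq_true] at ht
    obtain ⟨d1, d2, d3, d4, d5, d6⟩ := ht
    have hw : evw ω (eb (r', s', c)) = [(r', cv ω c), (s', (cv ω c) ^ 2)] := by
      rw [heb, ← cv_sqc hω hd1 hd2]; rfl
    have hr : r' < 72 := by
      have := d1
      unfold dualOk at this
      rw [Bool.and_eq_true] at this
      exact Nat.le_of_ble_eq_true this.1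
    have hs : s' < 72 := by
      have := d2
      unfold dualOk at this
      rw [Bool.and_eq_true] at this
      exact Nat.le_of_ble_eq_true this.1
    rw [hw]
    refine ⟨E6Fi22.pair_mem L hL' (Nat.eq_of_beq_eq_true d5) (Nat.eq_of_beq_eq_true d6) _, ?_, ?_⟩
    · have : Xw [(r', cv ω c), (s', (cv ω c) ^ 2)] = X K r' (cv ω c) * X K s' ((cv ω c) ^ 2) := by simp [Xw]
      rw [this]
      refine pres_pair h3 d1 d2 (fun hh => hrs hh.symm) ?_ (List.isEmpty_iff.1 d4) _
      intro hh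
      rw [← hh] at d3
      have : Nat.beq s' s' = true := Nat.beq_refl s'
      rw [this] at d3
      exact absurd d3 (by decide)
    · intro p hp
      simp only [List.mem_cons, List.not_mem_nil, or_false] at hp
      rcases hp with rfl | rfl
      · exact hr
      · exact hs

/-- the Steinberg element of a list of blocks -/
noncomputable def sg (ω : K) (l : List (ℕ × ℕ × RV)) : chevE6.SteinbergGroup K := sw (evw ω (wb l))

omit hω h3 [CharP K 2] in
theorem φ_sg (l : List (ℕ × ℕ × RV)) : φ K (sg ω l) = Xw (evw ω (wb l)) := φ_sw _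

omit hω h3 [CharP K 2] in
theorem sg_cons (b : ℕ × ℕ × RV) (l : List (ℕ × ℕ × RV)) : sg ω (b :: l) = sw (evw ω (eb b)) * sg ω l := by
  unfold sg
  rw [wb_cons]
  unfold sw evw
  rw [List.map_append, List.map_append, List.prod_append]

theorem sg_mem {l : List (ℕ × ℕ × RV)} (h : l.all okB = true) :
    ((θ K (sg ω l) : ↥(chevE6.group K)) : GL chevE6.Idx K) ∈ twistedE6 K 2 ∧ Pres (φ K (sg ω l)) := by
  induction l with
  | nil =>
    have : sg ω [] = 1 := by simp [sg, sw, evw, wb]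
    rw [this, map_one, map_one]
    exact ⟨one_mem _, Pres.one⟩
  | cons b l ih =>
    rw [List.all_cons, Bool.and_eq_true] at h
    obtain ⟨h1, h2⟩ := ih h.2
    obtain ⟨b1, b2, b3⟩ := blk_ok hω h3 h.1
    rw [sg_cons, map_mul, map_mul]
    refine ⟨?_, ?_⟩
    · rw [Subgroup.coe_mul, θ_sw b3]
      exact mul_mem b1 h1
    · rw [φ_sw]
      exact b2.mul h2

theorem okB_words : ([wx0, wx1, wn, wm, ws, wq].all fun l => l.all okB) = true := by decide +kernel

omit hω h3 [CharP K 2] in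
theorem th_eq {a b : chevE6.SteinbergGroup K} (h : φ K a = φ K b) : θ K a = θ K b := by
  have h1 : φ K (a * b⁻¹) = 1 := by rw [map_mul, map_inv, h, mul_inv_cancel]
  have h2 := ker_le h1
  rw [map_mul, map_inv] at h2
  exact mul_inv_eq_one.1 h2

theorem coe_sg {l : List (ℕ × ℕ × RV)} (hl : l ∈ [wx0, wx1, wn, wm, ws, wq]) : (φ K (sg ω l) : Matrix I27 I27 K) = mt ω (mtw tb (wb l)) := by
  rw [φ_sg, mt_mtw hω (okw_of hω hl)]

omit h3 in
theorem φ_x0 : φ K (sg ω wx0) = X0 ω := φ_sg _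

theorem pres_X0 : Pres (X0 ω) := by
  rw [← φ_x0 hω]
  refine (sg_mem hω h3 ?_).2
  have := okB_words hω h3
  rw [List.all_eq_true] at this
  exact this _ (by simp)

/-- the decomposition -/
theorem decomp (hF : ∃ t : K, t ≠ 0 ∧ t ≠ 1) {M : GL I27 K} (hM : Pres M) (hc : M * X0 ω = X0 ω * M) :
    ∃ (c : Kˣ) (k : ℕ) (N : GL I27 K), sc c * M = X0 ω ^ k * N ∧ Pres N ∧ N * X0 ω = X0 ω * N ∧ ∀ n ∈ F5, Fx N n := by
  obtain ⟨c, hc0, h1⟩ := fix_line hω h3 hF hM hc
  set u : Kˣ := Units.mk0 c hc0 with hu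
  have huc : (u : K) = c := rfl
  set M1 : GL I27 K := sc u⁻¹ * M with hM1
  have hp1 : Pres M1 := (pres_sc h3 _).mul hM
  have hc1 : M1 * X0 ω = X0 ω * M1 := by
    rw [hM1, mul_assoc, hc, ← mul_assoc, sc_comm, mul_assoc]
  have hf2 : Fx M1 2 := by
    unfold Fx
    rw [hM1, Units.val_mul, ← Matrix.mulVec_mulVec, h1, Matrix.mulVec_smul, sc_mulVec, smul_smul, ← huc, ← Units.val_mul, mul_inv_cancel,
      Units.val_one, one_smul]
  obtain ⟨k, hk, h4⟩ := fix_e3 hω h3 hF hp1 hc1 hf2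
  have hp0 : ∀ k, Pres (X0 ω ^ k) := by
    intro k
    induction k with
    | zero => rw [pow_zero]; exact Pres.one
    | succ k ih => rw [pow_succ]; exact ih.mul (pres_X0 hω h3)
  have hx2 : ∀ k, Fx (X0 ω ^ k) 2 := by
    intro k
    induction k with
    | zero => rw [pow_zero]; exact Fx.one 2
    | succ k ih => rw [pow_succ]; exact ih.mul (X0_fix2 hω)
  refine ⟨u⁻¹, k, (X0 ω ^ k)⁻¹ * M1, by rw [mul_inv_cancel_left], (hp0 k).inv.mul hp1, ?_, ?_⟩
  · have e1 : Commute (X0 ω ^ k)⁻¹ (X0 ω) := ((Commute.refl (X0 ω)).pow_left k).inv_left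
    exact (e1.mul_left (show Commute M1 (X0 ω) from hc1)).eq
  · apply fx_all hω h3 hF
    · have e1 : Commute (X0 ω ^ k)⁻¹ (X0 ω) := ((Commute.refl (X0 ω)).pow_left k).inv_left
      exact (e1.mul_left (show Commute M1 (X0 ω) from hc1)).eq
    · exact (hx2 k).inv.mul hf2
    · unfold Fx
      rw [Units.val_mul, ← Matrix.mulVec_mulVec, h4, Matrix.mulVec_mulVec, ← Units.val_mul, inv_mul_cancel, Units.val_one, Matrix.one_mulVec]

end

end Cfsg.Agent.Lib.E6O
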