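import Cfsg.Agent.Lib.E6OE
import Cfsg.Agent.Lib.GL4A8
set_option autoImplicit false
set_option linter.unusedSectionVars false
set_option linter.unusedVariables false
set_option linter.style.haveILetI false

/-!
The centralizer of an element of order five in `2E6(2)`.
-/

namespace Cfsg.Agent.Lib.E6O
open Cfsg.Lie Cfsg.Agent.Lib.F4Mat Cfsg.Agent.Lib.E6Pair Cfsg.Agent.Lib.ChevRel Cfsg.Agent.Lib.E6F4A
open Cfsg.Agent.Lib.E6Rep (dec cod f thz val D T X)
open scoped MatrixGroups Matrix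

universe u

/-- internal direct products with a cyclic group of order five -/
theorem prod_iso {C : Type*} [Group C] (x : C) (hx : orderOf x = 5) (D : Subgroup C) (hcen : ∀ d ∈ D, d * x = x * d)
    (hgen : ∀ c : C, ∃ k : ℕ, ∃ d ∈ D, c = x ^ k * d) (htriv : ∀ k : ℕ, x ^ k ∈ D → x ^ k = 1) :
    Nonempty (C ≃* (Multiplicative (ZMod 5) × ↥D)) := by
  have hfin : IsOfFinOrder x := orderOf_pos_iff.1 (by rw [hx]; norm_num)
  have hcomm : ∀ (a : ↥(Subgroup.zpowers x)) (d : ↥D), Commute ((Subgroup.zpowers x).subtype a) (D.subtype d) := by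
    rintro ⟨a, ha⟩ ⟨d, hd⟩
    obtain ⟨k, rfl⟩ := Subgroup.mem_zpowers_iff.1 ha
    exact ((show Commute x d from (hcen d hd).symm).zpow_left k)
  let F := MonoidHom.noncommCoprod (Subgroup.zpowers x).subtype D.subtype hcomm
  have hF : ∀ a d, F (a, d) = (a : C) * (d : C) := fun a d => rfl
  have hinj : Function.Injective F := by
    rw [injective_iff_map_eq_one]
    rintro ⟨⟨a, ha⟩, ⟨d, hd⟩⟩ h
    rw [hF] at h
    change a * d = 1 at h
    have h1 : a = d⁻¹ := eq_inv_of_mul_eq_one_left h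
    obtain ⟨k, hk⟩ := (hfin.mem_powers_iff_mem_zpowers).2 ha
    change x ^ k = a at hk
    have h2 : a = 1 := by
      rw [← hk]
      apply htriv
      rw [hk, h1]
      exact D.inv_mem hd
    rw [h2, one_mul] at h
    exact Prod.ext (Subtype.ext h2) (Subtype.ext h)
  have hsurj : Function.Surjective F := by
    intro c
    obtain ⟨k, d, hd, rfl⟩ := hgen c
    exact ⟨(⟨x ^ k, Subgroup.mem_zpowers_iff.2 ⟨k, zpow_natCast x k⟩⟩, ⟨d, hd⟩), rfl⟩
  have e1 : C ≃* ↥(Subgroup.zpowers x) × ↥D := (MulEquiv.ofBijective F ⟨hinj, hsurj⟩).symm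
  have hc5 : Nat.card ↥(Subgroup.zpowers x) = 5 := by rw [Nat.card_zpowers, hx]
  have e2 : Nonempty (↥(Subgroup.zpowers x) ≃* Multiplicative (ZMod 5)) := by
    have := zmodCyclicMulEquiv (G := ↥(Subgroup.zpowers x)) inferInstance
    rw [hc5] at this
    exact ⟨this.symm⟩
  obtain ⟨e2⟩ := e2
  exact ⟨e1.trans (e2.prodCongr (MulEquiv.refl _))⟩

section
variable {K : Type u} [Field K]

/-- lifts -/
def Lf (g : GL chevE6.Idx K) (M : GL I27 K) : Prop := ∃ s : chevE6.SteinbergGroup K,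
  ((θ K s : ↥(chevE6.group K)) : GL chevE6.Idx K) = g ∧ ∃ c : Kˣ, M = sc c * φ K s

theorem Lf.one : Lf (1 : GL chevE6.Idx K) 1 := ⟨1, by rw [map_one]; rfl, 1, by rw [map_one, mul_one, sc_one]⟩

theorem Lf.mul {g g' : GL chevE6.Idx K} {M M' : GL I27 K} (h : Lf g M) (h' : Lf g' M') : Lf (g * g') (M * M') := by
  obtain ⟨s, rfl, c, rfl⟩ := h
  obtain ⟨s', rfl, c', rfl⟩ := h'
  refine ⟨s * s', by rw [map_mul]; rfl, c * c', ?_⟩
  rw [map_mul, ← sc_mul]
  have := sc_comm c' (φ K s)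
  calc sc c * φ K s * (sc c' * φ K s') = sc c * (φ K s * sc c') * φ K s' := by simp only [mul_assoc]
    _ = sc c * (sc c' * φ K s) * φ K s' := by rw [this]
    _ = _ := by simp only [mul_assoc]

theorem sc_inv (c : Kˣ) : (sc c : GL I27 K)⁻¹ = sc c⁻¹ := by
  rw [inv_eq_iff_mul_eq_one, sc_mul, mul_inv_cancel, sc_one]

theorem Lf.inv {g : GL chevE6.Idx K} {M : GL I27 K} (h : Lf g M) : Lf g⁻¹ M⁻¹ := by
  obtain ⟨s, rfl, c, rfl⟩ := h
  refine ⟨s⁻¹, by rw [map_inv]; rfl, c⁻¹, ?_⟩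
  rw [map_inv, mul_inv_rev, sc_inv, sc_comm]

theorem Lf.sc_mul' {g : GL chevE6.Idx K} {M : GL I27 K} (h : Lf g M) (c : Kˣ) : Lf g (sc c * M) := by
  obtain ⟨s, rfl, d, rfl⟩ := h
  exact ⟨s, rfl, c * d, by rw [← sc_mul, mul_assoc]⟩

theorem Lf.of (s : chevE6.SteinbergGroup K) : Lf ((θ K s : ↥(chevE6.group K)) : GL chevE6.Idx K) (φ K s) :=
  ⟨s, rfl, 1, by rw [sc_one, one_mul]⟩

theorem Lf.eq_one {g : GL chevE6.Idx K} (h : Lf g (1 : GL I27 K)) : g = 1 := by
  obtain ⟨s, rfl, c, hc⟩ := h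
  have h1 : φ K s = sc c⁻¹ := by
    rw [← sc_inv, eq_comm, inv_eq_iff_mul_eq_one]
    exact hc.symm
  have h2 : θ K s = 1 := by
    apply eq_one_of_scalar
    intro v
    rw [h1, sc_comm]
  rw [h2]; rfl

variable [CharP K 2] {ω : K} (hω : ω ^ 2 = ω + 1)
include hω

theorem Lf.scalar {M : GL I27 K} (h : Lf (1 : GL chevE6.Idx K) M) : ∃ c : Kˣ, M = sc c := by
  obtain ⟨s, hs, c, rfl⟩ := h
  have hs' : θ K s = 1 := Subtype.ext hs
  have hcm := comm_of_one hs'
  obtain ⟨d, hd⟩ := E6Fi22.scalar hω (M := (φ K s : Matrix I27 I27 K)) (by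
    intro x _
    rw [← E6Fi22.coe_FF hω x]
    have h1 := hcm (sw (evw ω (E6Fi22.wd x)))
    rw [φ_sw] at h1
    have h2 := congrArg (fun g : GL I27 K => (g : Matrix I27 I27 K)) h1
    exact h2)
  have hd0 : d ≠ 0 := by
    rintro rfl
    rw [zero_smul] at hd
    have h1 : ((φ K s)⁻¹ * φ K s : GL I27 K) = 1 := inv_mul_cancel _
    have h2 := congrArg (fun g : GL I27 K => (g : Matrix I27 I27 K)) h1
    beta_reduce at h2
    rw [Units.val_mul, hd, mul_zero, Units.val_one] at h2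
    have h4 := congrFun (congrFun h2 (dec 0)) (dec 0)
    rw [Matrix.one_apply_eq] at h4
    exact zero_ne_one h4
  refine ⟨c * Units.mk0 d hd0, ?_⟩
  rw [← sc_mul]
  congr 1
  apply Units.ext
  rw [hd]; rfl

variable (h3 : ∀ c : K, c ≠ 0 → c ^ 3 = 1)
include h3

/-- an element of the twisted group from blocks -/
noncomputable def gt (l : List (ℕ × ℕ × RV)) (hl : l.all okB = true) : ↥(twistedE6 K 2) := ⟨_, (sg_mem hω h3 hl).1⟩

omit hω h3 [CharP K 2] in
theorem mem_words {l : List (ℕ × ℕ × RV)} (h : ([wx0, wx1, wn, wm, ws, wq].all fun l => l.all okB) = true)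
    (hl : l ∈ [wx0, wx1, wn, wm, ws, wq]) : l.all okB = true := by
  rw [List.all_eq_true] at h
  exact h _ hl

/-- the element of order five -/
noncomputable def x0 : ↥(twistedE6 K 2) := gt hω h3 wx0 (mem_words (okB_words hω h3) (by simp))

theorem lf_x0 : Lf ((x0 hω h3 : ↥(twistedE6 K 2)) : GL chevE6.Idx K) (X0 ω) := by
  rw [← φ_x0 hω]
  exact Lf.of _

theorem lf_comm {g : ↥(twistedE6 K 2)} (hg : g * x0 hω h3 = x0 hω h3 * g) {M : GL I27 K} (h : Lf (g : GL chevE6.Idx K) M) :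
    M * X0 ω = X0 ω * M := by
  have h1 := (h.mul (lf_x0 hω h3)).mul ((lf_x0 hω h3).mul h).inv
  have h2 : (g : GL chevE6.Idx K) * (x0 hω h3 : ↥(twistedE6 K 2)) * (((x0 hω h3 : ↥(twistedE6 K 2)) : GL chevE6.Idx K) * (g : GL chevE6.Idx K))⁻¹ = 1 := by
    have := congrArg (fun z : ↥(twistedE6 K 2) => (z : GL chevE6.Idx K)) hg
    beta_reduce at this
    rw [Subgroup.coe_mul, Subgroup.coe_mul] at this
    rw [this, mul_inv_cancel]
  rw [h2] at h1
  obtain ⟨c, hc⟩ := h1.scalar hω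
  have h4 : M * X0 ω * M⁻¹ = sc c * X0 ω := by
    have : M * X0 ω = sc c * (X0 ω * M) := by rw [← hc, inv_mul_cancel_right]
    rw [this, ← mul_assoc, mul_inv_cancel_right]
  have h5 : ∀ k, (M * X0 ω * M⁻¹) ^ k = M * X0 ω ^ k * M⁻¹ := fun k => conj_pow
  have h6 : ∀ k, (sc c * X0 ω) ^ k = sc (c ^ k) * X0 ω ^ k := by
    intro k
    rw [(show Commute (sc c) (X0 ω) from sc_comm c _).mul_pow]
    congr 1
    induction k with
    | zero => rw [pow_zero, pow_zero, sc_one]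
    | succ k ih => rw [pow_succ, pow_succ, ih, sc_mul]
  have h7 := h5 5
  rw [h4, h6, X0_five hω, mul_one, mul_one, mul_inv_cancel] at h7
  have h8 : c ^ 5 = 1 := by
    have h9 := congrArg (fun g : GL I27 K => (g : Matrix I27 I27 K) (dec 0) (dec 0)) h7
    beta_reduce at h9
    rw [Units.val_one, Matrix.one_apply_eq] at h9
    change (((c ^ 5 : Kˣ) : K) • (1 : Matrix I27 I27 K)) (dec 0) (dec 0) = 1 at h9
    rw [Matrix.smul_apply, Matrix.one_apply_eq, smul_eq_mul, mul_one] at h9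
    exact Units.ext h9
  have h9 : c ^ 3 = 1 := by
    apply Units.ext
    rw [Units.val_pow_eq_pow_val, h3 _ c.ne_zero, Units.val_one]
  have h10 : c = 1 := by
    have : c ^ 5 * c ^ 5 = c ^ 3 * c ^ 3 * c ^ 3 * c := by rw [← pow_add, ← pow_add, ← pow_add, ← pow_succ]
    rw [h8, h9] at this
    simpa using this.symm
  rw [h10, sc_one, one_mul] at h4
  calc M * X0 ω = (M * X0 ω * M⁻¹) * M := by group
    _ = X0 ω * M := by rw [h4]

/-- the centralizer -/
abbrev Cx : Subgroup ↥(twistedE6 K 2) := Subgroup.centralizer {x0 hω h3}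

theorem cx_comm (g : ↥(Cx hω h3)) : (g : ↥(twistedE6 K 2)) * x0 hω h3 = x0 hω h3 * g :=
  ((Subgroup.mem_centralizer_iff.1 g.2) _ rfl).symm

/-- the complement -/
def Dx : Subgroup ↥(Cx hω h3) where
  carrier := {g | ∃ M : GL I27 K, Lf ((g : ↥(twistedE6 K 2)) : GL chevE6.Idx K) M ∧ Pres M ∧ ∀ n ∈ F5, Fx M n}
  one_mem' := ⟨1, Lf.one, Pres.one, fun n _ => Fx.one n⟩
  mul_mem' := by
    rintro g g' ⟨M, h1, h2, h4⟩ ⟨M', h1', h2', h4'⟩
    exact ⟨M * M', h1.mul h1', h2.mul h2', fun n hn => (h4 n hn).mul (h4' n hn)⟩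
  inv_mem' := by
    rintro g ⟨M, h1, h2, h4⟩
    exact ⟨M⁻¹, h1.inv, h2.inv, fun n hn => (h4 n hn).inv⟩

theorem lf_unique {g : GL chevE6.Idx K} {M M' : GL I27 K} (h : Lf g M) (h' : Lf g M') (h2 : Fx M 2) (h2' : Fx M' 2) : M = M' := by
  have h1 := h'.inv.mul h
  rw [inv_mul_cancel] at h1
  obtain ⟨c, hc⟩ := h1.scalar hω
  have h4 := h2'.inv.mul h2
  rw [hc] at h4
  unfold Fx at h4
  rw [sc_mulVec] at h4
  have h5 := congrFun h4 (dec 2)
  rw [Pi.smul_apply, ev_dec (by decide) (by decide), if_pos rfl, smul_eq_mul, mul_one] at h5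
  have h6 : c = 1 := Units.ext h5
  rw [h6, sc_one] at hc
  exact (inv_mul_eq_one.1 hc).symm

variable (hF : ∃ t : K, t ≠ 0 ∧ t ≠ 1)

/-- the lift -/
noncomputable def lam (g : ↥(Dx hω h3)) : GL I27 K := Classical.choose g.2
theorem lam_spec (g : ↥(Dx hω h3)) : Lf (((g : ↥(Cx hω h3)) : ↥(twistedE6 K 2)) : GL chevE6.Idx K) (lam hω h3 g) ∧ Pres (lam hω h3 g) ∧
    ∀ n ∈ F5, Fx (lam hω h3 g) n := Classical.choose_spec g.2

theorem lam_eq {g : ↥(Dx hω h3)} {M : GL I27 K} (h : Lf (((g : ↥(Cx hω h3)) : ↥(twistedE6 K 2)) : GL chevE6.Idx K) M) (h2 : Fx M 2) :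
    lam hω h3 g = M :=
  lf_unique hω h3 (lam_spec hω h3 g).1 h ((lam_spec hω h3 g).2.2 2 (by decide)) h2

theorem lam_mul (g g' : ↥(Dx hω h3)) : lam hω h3 (g * g') = lam hω h3 g * lam hω h3 g' := by
  apply lam_eq
  · exact (lam_spec hω h3 g).1.mul (lam_spec hω h3 g').1
  · exact ((lam_spec hω h3 g).2.2 2 (by decide)).mul ((lam_spec hω h3 g').2.2 2 (by decide))

theorem lam_one : lam hω h3 1 = 1 := lam_eq hω h3 Lf.one (Fx.one 2)

include hF

/-- the restriction to the block of size four -/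
noncomputable def be : ↥(Dx hω h3) →* Matrix (Fin 4) (Fin 4) K where
  toFun g := bb (lam hω h3 g)
  map_one' := by rw [lam_one, bb_one]
  map_mul' g g' := by rw [lam_mul, bb_mul h3 hF (lam_spec hω h3 g).2.1 (lam_spec hω h3 g).2.2]

theorem be_inj : Function.Injective (be hω h3 hF).toHomUnits := by
  rw [injective_iff_map_eq_one]
  intro g hg
  have h1 : bb (lam hω h3 g) = 1 := congrArg (fun z : (Matrix (Fin 4) (Fin 4) K)ˣ => (z : Matrix (Fin 4) (Fin 4) K)) hg
  have h2 := bb_inj h3 hF (lam_spec hω h3 g).2.1 (lam_spec hω h3 g).2.2 h1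
  have h4 := (lam_spec hω h3 g).1
  rw [h2] at h4
  exact Subtype.ext (Subtype.ext (Subtype.ext h4.eq_one))

/-- the embedding of the prime field -/
noncomputable def io : GL (Fin 4) (ZMod 2) →* GL (Fin 4) K := Matrix.GeneralLinearGroup.map (ZMod.castHom (dvd_refl 2) K)

omit hω h3 hF in
theorem io_inj : Function.Injective (io (K := K)) := by
  intro a b h
  apply Units.ext
  ext i j
  have h1 := congrArg (fun z : GL (Fin 4) K => (z : Matrix (Fin 4) (Fin 4) K) i j) h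
  exact (ZMod.castHom (dvd_refl 2) K).injective h1

/-- the roots of the transvections -/
def rtab (i j : Fin 4) : ℕ := (![![0, 63, 60, 18], ![8, 0, 25, 0], ![11, 46, 0, 1], ![53, 71, 70, 0]] : Fin 4 → Fin 4 → ℕ) i j

omit hω h3 hF [CharP K 2] in
theorem rtab_ok : ∀ i j : Fin 4, i ≠ j → (okB (rtab i j, rtab i j, (1, 0)) = true ∧
    ((∀ n ∈ F5, E6Rep.en (rtab i j) n = 0) ∧ ∀ k l : Fin 4, ((E6Rep.en (rtab i j) (NB l)).natAbs = NB k + 1 ↔ (k = i ∧ l = j))) ∧
    rtab i j < 72) ∧ eqL (mulL (xL (lk tb (rtab i j)) (1, 0)) x0L) (mulL x0L (xL (lk tb (rtab i j)) (1, 0))) = true ∧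
    chkT (rtab i j) (lk tb (rtab i j)) = true := by decide +kernel

/-- the root element -/
theorem exists_transv {i j : Fin 4} (hij : i ≠ j) : ∃ g : ↥(Dx hω h3), be hω h3 hF g = Matrix.transvection i j (1 : K) := by
  obtain ⟨⟨h1, ⟨h2, h4⟩, h5⟩, h6, h7⟩ := rtab_ok i j hij
  set r := rtab i j with hr
  have hb : Nat.beq r r = true := Nat.beq_refl r
  have hcv : cv ω ((1, 0) : RV) = 1 := by simp [cv]
  have heb : eb (r, r, (1, 0)) = [(r, (1, 0))] := by unfold eb; rw [hb]; rfl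
  have hl : [(r, r, ((1, 0) : RV))].all okB = true := by rw [List.all_cons, h1]; rfl
  have hφ : φ K (sg ω [(r, r, (1, 0))]) = X K r 1 := by
    rw [φ_sg]
    have : wb [(r, r, ((1, 0) : RV))] = [(r, (1, 0))] := by rw [wb_cons, heb]; rfl
    rw [this]
    simp [Xw, evw, hcv]
  have hcomm : X K r 1 * X0 ω = X0 ω * X K r 1 := by
    apply Units.ext
    have e1 : mt ω (xL (lk tb r) (1, 0)) = (X K r 1 : Matrix I27 I27 K) := by
      rw [mt_xL h5 h7 (by decide) (by decide), hcv]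
    have hlen : (xL (lk tb r) (1, 0)).length = 27 := by unfold xL; rw [List.length_map, List.length_range]
    rw [Units.val_mul, Units.val_mul, coe_X0 hω, ← e1, ← mt_mulL hω (len_x0 hω), ← mt_mulL hω hlen, eqL_sound h6]
  have hp := (sg_mem hω h3 hl).2
  rw [hφ] at hp
  have hfx : ∀ n ∈ F5, Fx (X K r 1 : GL I27 K) n := by
    intro n hn
    rw [fx_iff (F5_lt n hn)]
    intro a ha
    unfold en'
    rw [E6Rep.coe_X, Matrix.add_apply, Matrix.smul_apply, Em_entry h5, E6Rep.cod_dec n (F5_lt n hn), h2 n hn, if_neg (by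
      intro hh
      rw [Int.natAbs_zero] at hh
      omega), smul_zero, add_zero, Matrix.one_apply]
    by_cases h : a = n
    · rw [if_pos h, if_pos (by rw [h])]
    · rw [if_neg h, if_neg (fun hh => h (E6Rep.dec_inj ha (F5_lt n hn) hh))]
  have hg : gt hω h3 _ hl * x0 hω h3 = x0 hω h3 * gt hω h3 _ hl := by
    apply Subtype.ext
    change ((θ K (sg ω [(r, r, (1, 0))]) : ↥(chevE6.group K)) : GL chevE6.Idx K) * ((θ K (sg ω wx0) : ↥(chevE6.group K)) : GL chevE6.Idx K) =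
      ((θ K (sg ω wx0) : ↥(chevE6.group K)) : GL chevE6.Idx K) * ((θ K (sg ω [(r, r, (1, 0))]) : ↥(chevE6.group K)) : GL chevE6.Idx K)
    rw [← Subgroup.coe_mul, ← Subgroup.coe_mul, ← map_mul, ← map_mul]
    congr 1
    apply th_eq
    rw [map_mul, map_mul, hφ, φ_x0 hω, hcomm]
  have hlf : Lf ((gt hω h3 _ hl : ↥(twistedE6 K 2)) : GL chevE6.Idx K) (X K r 1) := by
    rw [← hφ]
    exact Lf.of _
  have hmem : gt hω h3 _ hl ∈ Cx hω h3 := by
    rw [Subgroup.mem_centralizer_iff]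
    intro y hy
    rw [Set.mem_singleton_iff] at hy
    subst hy
    exact hg.symm
  refine ⟨⟨⟨gt hω h3 _ hl, hmem⟩, ⟨X K r 1, hlf, hp, hfx⟩⟩, ?_⟩
  have hlam := lam_eq hω h3 (g := ⟨⟨gt hω h3 _ hl, hmem⟩, ⟨X K r 1, hlf, hp, hfx⟩⟩) hlf (hfx 2 (by decide))
  change bb (lam hω h3 _) = _
  rw [hlam]
  ext k l
  change en' (X K r 1) (NB k) (NB l) = _
  unfold en'
  rw [E6Rep.coe_X, Matrix.add_apply, Matrix.smul_apply, Em_entry h5, E6Rep.cod_dec _ (NB_lt l), E6Rep.cod_dec _ (NB_lt k), smul_eq_mul, one_mul,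
    Matrix.transvection, Matrix.add_apply, Matrix.one_apply, Matrix.one_apply, Matrix.single_apply]
  have hN : (dec (NB k) = dec (NB l)) ↔ k = l := by
    constructor
    · intro hh
      have := E6Rep.dec_inj (NB_lt k) (NB_lt l) hh
      revert this; revert k l; decide
    · rintro rfl; rfl
  have h8 := h4 k l
  simp only [hN, h8]
  congr 1
  by_cases h9 : k = i ∧ l = j
  · rw [if_pos h9, if_pos ⟨h9.1.symm, h9.2.symm⟩]
  · rw [if_neg h9, if_neg (fun hh => h9 ⟨hh.1.symm, hh.2.symm⟩)]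

/-- all matrices over the prime field occur -/
theorem exists_of_det (g : Matrix (Fin 4) (Fin 4) (ZMod 2)) (hg : g.det ≠ 0) :
    ∃ d : ↥(Dx hω h3), be hω h3 hF d = g.map (ZMod.castHom (dvd_refl 2) K) := by
  refine Matrix.diagonal_transvection_induction_of_det_ne_zero
    (fun g => ∃ d : ↥(Dx hω h3), be hω h3 hF d = g.map (ZMod.castHom (dvd_refl 2) K)) g hg ?_ ?_ ?_
  · intro D hD
    have h1 : D = 1 := by
      funext i
      rw [Matrix.det_diagonal] at hD
      have h2 := Finset.prod_ne_zero_iff.mp hD i (Finset.mem_univ i)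
      rcases GL4A8.zmod2_cases (D i) with h3 | h3
      · exact absurd h3 h2
      · exact h3
    rw [h1, Matrix.diagonal_one']
    exact ⟨1, by rw [map_one, Matrix.map_one _ (map_zero _) (map_one _)]⟩
  · rintro ⟨i, j, hij, c⟩
    rcases GL4A8.zmod2_cases c with rfl | rfl
    · refine ⟨1, ?_⟩
      simp only [Matrix.TransvectionStruct.toMatrix, Matrix.transvection_zero]
      rw [map_one, Matrix.map_one _ (map_zero _) (map_one _)]
    · obtain ⟨d, hd⟩ := exists_transv hω h3 hF hij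
      refine ⟨d, ?_⟩
      rw [hd]
      simp only [Matrix.TransvectionStruct.toMatrix, Matrix.transvection]
      ext k l
      rw [Matrix.map_apply, Matrix.add_apply, Matrix.add_apply, map_add, Matrix.one_apply, Matrix.one_apply, Matrix.single_apply, Matrix.single_apply]
      split_ifs <;> simp
  · rintro A B hA hB ⟨d, hd⟩ ⟨d', hd'⟩
    exact ⟨d * d', by rw [map_mul, hd, hd', Matrix.map_mul]⟩

theorem range_be : (be hω h3 hF).toHomUnits.range = (io (K := K)).range := by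
  classical
  apply le_antisymm
  · rintro _ ⟨d, rfl⟩
    have hsq : ∀ i j, (be hω h3 hF d) i j ^ 2 = (be hω h3 hF d) i j := bb_sq h3 hF (lam_spec hω h3 d).2.1 (lam_spec hω h3 d).2.2
    let g : Matrix (Fin 4) (Fin 4) (ZMod 2) := Matrix.of fun i j =>
      if (be hω h3 hF d) i j = 0 then 0 else 1
    have hg : g.map (ZMod.castHom (dvd_refl 2) K) = be hω h3 hF d := by
      ext i j
      rw [Matrix.map_apply]
      change (ZMod.castHom (dvd_refl 2) K) (if (be hω h3 hF d) i j = 0 then 0 else 1) = _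
      rcases sq01 (hsq i j) with h | h
      · rw [if_pos h, map_zero, h]
      · rw [if_neg (by rw [h]; exact one_ne_zero), map_one, h]
    have hdet : g.det ≠ 0 := by
      intro h
      have h1 : (be hω h3 hF d).det = 0 := by
        rw [← hg]
        have := (ZMod.castHom (dvd_refl 2) K).map_det g
        rw [h, map_zero] at this
        exact this.symm
      have h2 : be hω h3 hF d * be hω h3 hF d⁻¹ = 1 := by rw [← map_mul, mul_inv_cancel, map_one]
      have h4 := congrArg Matrix.det h2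
      rw [Matrix.det_mul, h1, zero_mul, Matrix.det_one] at h4
      exact zero_ne_one h4
    refine ⟨Matrix.GeneralLinearGroup.mkOfDetNeZero g hdet, ?_⟩
    apply Units.ext
    exact hg
  · rintro _ ⟨g, rfl⟩
    obtain ⟨d, hd⟩ := exists_of_det hω h3 hF (g : Matrix (Fin 4) (Fin 4) (ZMod 2)) (GL4A8.det_ne_zero g)
    refine ⟨d, ?_⟩
    apply Units.ext
    exact hd

theorem dx_iso : Nonempty (↥(Dx hω h3) ≃* alternatingGroup (Fin 8)) := by
  have e1 := MonoidHom.ofInjective (be_inj hω h3 hF)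
  have e2 := MonoidHom.ofInjective (io_inj (K := K))
  have e3 := MulEquiv.subgroupCongr (range_be hω h3 hF)
  exact ⟨((e1.trans e3).trans e2.symm).trans GL4A8.equivA8⟩

theorem x0_five : x0 hω h3 ^ 5 = 1 := by
  apply Subtype.ext
  have h : Lf (((x0 hω h3 ^ 5 : ↥(twistedE6 K 2)) : GL chevE6.Idx K)) (X0 ω ^ 5) := by
    have : ∀ k, Lf (((x0 hω h3 ^ k : ↥(twistedE6 K 2)) : GL chevE6.Idx K)) (X0 ω ^ k) := by
      intro k
      induction k with
      | zero => rw [pow_zero, pow_zero]; exact Lf.one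
      | succ k ih => rw [pow_succ, pow_succ]; exact ih.mul (lf_x0 hω h3)
    exact this 5
  rw [X0_five hω] at h
  exact h.eq_one

end

end Cfsg.Agent.Lib.E6O
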