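import Cfsg.Agent.Lib.E6OF
set_option autoImplicit false
set_option linter.unusedSectionVars false
set_option linter.unusedVariables false
set_option linter.style.haveILetI false

/-!
Elements of order five in `2E6(2)`: conjugacy and centralizer.
-/

namespace Cfsg.Agent.Lib.E6O
open Cfsg.Lie Cfsg.Agent.Lib.F4Mat Cfsg.Agent.Lib.E6Pair Cfsg.Agent.Lib.ChevRel Cfsg.Agent.Lib.E6F4A
open Cfsg.Agent.Lib.E6Rep (dec cod f thz val D T X)
open scoped MatrixGroups Matrix

universe u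

/-! ### abstract fusion -/

section
variable {G : Type*} [Group G] {x y n m s q : G}

theorem conj_of {a b g : G} (h : g * a = b * g) : IsConj a b := isConj_iff.2 ⟨g, by rw [h, mul_inv_cancel_right]⟩

theorem isConj_pow {a b : G} (h : IsConj a b) (k : ℕ) : IsConj (a ^ k) (b ^ k) := by
  obtain ⟨c, rfl⟩ := isConj_iff.1 h
  exact isConj_iff.2 ⟨c, by rw [conj_pow]⟩

theorem fusion (hx : x ^ 5 = 1) (hy : y ^ 5 = 1) (hxy : x * y = y * x) (hn : n * y = y ^ 2 * n) (hnx : n * x = x * n)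
    (hm : m * x = x ^ 2 * m) (hs : s * x = y * s) (hq : q * y = x * y * q) (i j : ℕ) (h : ¬ (i % 5 = 0 ∧ j % 5 = 0)) :
    IsConj x (x ^ i * y ^ j) := by
  have hc : Commute x y := hxy
  have p2 : IsConj x (x ^ 2) := conj_of hm
  have p4 : IsConj x (x ^ 4) := by
    have := isConj_pow p2 2
    rw [← pow_mul] at this
    exact p2.trans this
  have p3 : IsConj x (x ^ 3) := by
    have := isConj_pow p2 4
    rw [← pow_mul, show 2 * 4 = 5 + 3 from rfl, pow_add, hx, one_mul] at this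
    exact p4.trans this
  have pk : ∀ k, k < 5 → k ≠ 0 → IsConj x (x ^ k) := by
    intro k hk hk0
    interval_cases k
    · exact absurd rfl hk0
    · rw [pow_one]
    · exact p2
    · exact p3
    · exact p4
  have pz : ∀ z, IsConj x z → ∀ k, k < 5 → k ≠ 0 → IsConj x (z ^ k) := fun z hz k hk hk0 => (pk k hk hk0).trans (isConj_pow hz k)
  have py : IsConj x y := conj_of hs
  have pxy : IsConj x (x * y) := py.trans (conj_of hq)
  have step : ∀ k, IsConj x (x * y ^ k) → IsConj x (x * y ^ (2 * k)) := by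
    intro k hk
    refine hk.trans (conj_of (g := n) ?_)
    have hnk : n * y ^ k = y ^ (2 * k) * n := by
      have h1 : n * y * n⁻¹ = y ^ 2 := by rw [hn, mul_inv_cancel_right]
      have h2 : (n * y * n⁻¹) ^ k = n * y ^ k * n⁻¹ := conj_pow
      rw [h1, ← pow_mul] at h2
      rw [h2, inv_mul_cancel_right]
    rw [← mul_assoc, hnx, mul_assoc, hnk, mul_assoc]
  have q1 : IsConj x (x * y ^ 1) := by rw [pow_one]; exact pxy
  have q2 := step 1 q1
  have q4 := step 2 q2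
  have q3 := step 4 q4
  have e8 : y ^ (2 * 4) = y ^ 3 := by rw [show 2 * 4 = 5 + 3 from rfl, pow_add, hy, one_mul]
  rw [e8] at q3
  have qk : ∀ k, k < 5 → IsConj x (x * y ^ k) := by
    intro k hk
    interval_cases k
    · rw [pow_zero, mul_one]
    · exact q1
    · exact q2
    · exact q3
    · exact q4
  have ex : x ^ i = x ^ (i % 5) := by
    conv_lhs => rw [← Nat.div_add_mod i 5, pow_add, pow_mul, hx, one_pow, one_mul]
  have ey : ∀ j, y ^ j = y ^ (j % 5) := by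
    intro j
    conv_lhs => rw [← Nat.div_add_mod j 5, pow_add, pow_mul, hy, one_pow, one_mul]
  rw [ex, ey j]
  have hi := Nat.mod_lt i (show 0 < 5 by norm_num)
  have hj := Nat.mod_lt j (show 0 < 5 by norm_num)
  set a := i % 5
  set b := j % 5
  by_cases ha : a = 0
  · rw [ha, pow_zero, one_mul]
    exact pz y py b hj (fun hb => h ⟨ha, hb⟩)
  · have key : ∀ a < 5, a ≠ 0 → ∀ b < 5, ∃ k < 5, (k * a) % 5 = b := by decide
    obtain ⟨k, hk, hkb⟩ := key a hi ha b hj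
    have h1 := pz _ (qk k hk) a hi ha
    rw [(hc.pow_right k).mul_pow, ← pow_mul, ey (k * a), hkb] at h1
    exact h1

/-- elements of order five up to conjugacy -/
theorem sylow5 [Finite G] (hG : (Nat.card G).factorization 5 = 2) (hx : x ^ 5 = 1) (hx1 : x ≠ 1) (hy : y ^ 5 = 1) (hxy : x * y = y * x)
    (hyx : y ∉ Subgroup.zpowers x) (z : G) (hz : orderOf z = 5) : ∃ i j : ℕ, IsConj z (x ^ i * y ^ j) := by
  haveI : Fact (Nat.Prime 5) := ⟨by norm_num⟩
  have hc : Commute x y := hxy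
  let P : Subgroup G :=
    { carrier := {z | ∃ i j : ℕ, z = x ^ i * y ^ j}
      one_mem' := ⟨0, 0, by rw [pow_zero, pow_zero, one_mul]⟩
      mul_mem' := by
        rintro _ _ ⟨i, j, rfl⟩ ⟨i', j', rfl⟩
        refine ⟨i + i', j + j', ?_⟩
        have := (hc.symm.pow_pow j i').eq
        calc x ^ i * y ^ j * (x ^ i' * y ^ j') = x ^ i * (y ^ j * x ^ i') * y ^ j' := by simp only [mul_assoc]
          _ = x ^ i * (x ^ i' * y ^ j) * y ^ j' := by rw [this]
          _ = _ := by rw [pow_add, pow_add]; simp only [mul_assoc]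
      inv_mem' := by
        rintro _ ⟨i, j, rfl⟩
        refine ⟨4 * i, 4 * j, ?_⟩
        rw [inv_eq_iff_mul_eq_one]
        have := (hc.symm.pow_pow j (4 * i)).eq
        calc x ^ i * y ^ j * (x ^ (4 * i) * y ^ (4 * j)) = x ^ i * (y ^ j * x ^ (4 * i)) * y ^ (4 * j) := by simp only [mul_assoc]
          _ = (x ^ i * x ^ (4 * i)) * (y ^ j * y ^ (4 * j)) := by rw [this]; simp only [mul_assoc]
          _ = 1 := by
            rw [← pow_add, ← pow_add, show i + 4 * i = 5 * i by ring, show j + 4 * j = 5 * j by ring, pow_mul, pow_mul, hx, hy, one_pow,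
              one_pow, one_mul] }
  have hP5 : IsPGroup 5 ↥P := by
    intro g
    refine ⟨1, ?_⟩
    obtain ⟨g, i, j, rfl⟩ := g
    apply Subtype.ext
    change (x ^ i * y ^ j) ^ (5 ^ 1) = 1
    rw [pow_one, (hc.pow_pow i j).mul_pow, ← pow_mul, ← pow_mul, mul_comm i, mul_comm j, pow_mul, pow_mul, hx, hy, one_pow, one_pow, one_mul]
  obtain ⟨Q, hQ⟩ := hP5.exists_le_sylow
  have hQc : Nat.card Q = 25 := by
    rw [Sylow.card_eq_multiplicity, hG]; norm_num
  have hxP : Subgroup.zpowers x ≤ P := by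
    rw [Subgroup.zpowers_le]
    exact ⟨1, 0, by rw [pow_one, pow_zero, mul_one]⟩
  have hox : orderOf x = 5 := orderOf_eq_prime hx hx1
  have hzx : Nat.card (Subgroup.zpowers x) = 5 := by rw [Nat.card_zpowers, hox]
  have hPc : Nat.card P = 25 := by
    have h1 : Nat.card P ∣ 25 := by rw [← hQc]; exact Subgroup.card_dvd_of_le hQ
    have h2 : 5 ∣ Nat.card P := by rw [← hzx]; exact Subgroup.card_dvd_of_le hxP
    have h3 : Nat.card P ≠ 5 := by
      intro h
      apply hyx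
      have : Subgroup.zpowers x = P := Subgroup.eq_of_le_of_card_ge hxP (by rw [h, hzx])
      rw [this]
      exact ⟨0, 1, by rw [pow_one, pow_zero, one_mul]⟩
    have h4 : Nat.card P ∈ Nat.divisors 25 := Nat.mem_divisors.2 ⟨h1, by norm_num⟩
    have h5 : Nat.divisors 25 = {1, 5, 25} := by decide +kernel
    rw [h5] at h4
    simp only [Finset.mem_insert, Finset.mem_singleton] at h4
    rcases h4 with h4 | h4 | h4
    · rw [h4] at h2; norm_num at h2
    · exact absurd h4 h3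
    · exact h4
  have hPQ : P = Q := Subgroup.eq_of_le_of_card_ge hQ (by rw [hPc]; exact hQc.le)
  have hz5 : IsPGroup 5 ↥(Subgroup.zpowers z) := by
    apply IsPGroup.of_card (n := 1)
    rw [Nat.card_zpowers, hz, pow_one]
  obtain ⟨Q', hQ'⟩ := hz5.exists_le_sylow
  obtain ⟨g, hg⟩ := MulAction.exists_smul_eq G Q' Q
  have h6 : g * z * g⁻¹ ∈ Q := by
    rw [← hg]
    exact Subgroup.smul_mem_pointwise_smul z (MulAut.conj g) (Q' : Subgroup G) (hQ' (Subgroup.mem_zpowers z))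
  have h7 : g * z * g⁻¹ ∈ P := by rw [hPQ]; exact h6
  obtain ⟨i, j, hij⟩ := h7
  exact ⟨i, j, isConj_iff.2 ⟨g, hij⟩⟩

end

section
variable {K : Type u} [Field K] [CharP K 2] {ω : K} (hω : ω ^ 2 = ω + 1) (h3 : ∀ c : K, c ≠ 0 → c ^ 3 = 1)
include hω h3

theorem lf_pow (k : ℕ) : Lf (((x0 hω h3 ^ k : ↥(twistedE6 K 2)) : GL chevE6.Idx K)) (X0 ω ^ k) := by
  induction k with
  | zero => rw [pow_zero, pow_zero]; exact Lf.one
  | succ k ih => rw [pow_succ, pow_succ]; exact ih.mul (lf_x0 hω h3)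

omit h3 in
theorem X0_pow_fix2 (k : ℕ) : Fx (X0 ω ^ k) 2 := by
  induction k with
  | zero => rw [pow_zero]; exact Fx.one 2
  | succ k ih => rw [pow_succ]; exact ih.mul (X0_fix2 hω)

omit h3 in
theorem X0_seven {k : ℕ} (hk : k < 5) (hk0 : k ≠ 0) : (((X0 ω ^ k : GL I27 K) : Matrix I27 I27 K) *ᵥ ev 3) (dec 7) = 1 := by
  rw [X0_col hω hk (by decide)]
  interval_cases k
  · exact absurd rfl hk0
  · simp [colb, cc, cb]
  · simp [colb, cc, cb]
  · simp [colb, cc, cb]
  · simp [colb, cc, cb]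

theorem x0_five' : x0 hω h3 ^ 5 = 1 := by
  apply Subtype.ext
  have h := lf_pow hω h3 5
  rw [X0_five hω] at h
  exact h.eq_one

theorem x0_ne : x0 hω h3 ≠ 1 := by
  intro h
  have h1 := lf_x0 hω h3
  rw [h] at h1
  obtain ⟨c, hc⟩ := Lf.scalar hω h1
  have h2 := X0_seven hω (k := 1) (by norm_num) (by norm_num)
  rw [pow_one, hc, sc_mulVec, Pi.smul_apply, ev_dec (by decide) (by decide), if_neg (by decide), smul_zero] at h2
  exact zero_ne_one h2

variable (hF : ∃ t : K, t ≠ 0 ∧ t ≠ 1)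
include hF

theorem cx_iso : Nonempty (↥(Cx hω h3) ≃* (Multiplicative (ZMod 5) × alternatingGroup (Fin 8))) := by
  have hxm : x0 hω h3 ∈ Cx hω h3 := by
    rw [Subgroup.mem_centralizer_iff]
    intro y hy
    rw [Set.mem_singleton_iff] at hy
    rw [hy]
  obtain ⟨e⟩ := prod_iso (C := ↥(Cx hω h3)) ⟨x0 hω h3, hxm⟩ (by
      haveI : Fact (Nat.Prime 5) := ⟨by norm_num⟩
      apply orderOf_eq_prime
      · apply Subtype.ext
        exact x0_five' hω h3
      · intro h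
        exact x0_ne hω h3 (congrArg Subtype.val h)) (Dx hω h3)
    (fun d _ => Subtype.ext (cx_comm hω h3 d))
    (by
      intro c
      obtain ⟨w, hw, hp⟩ := exists_lift h3 ((c : ↥(twistedE6 K 2)).2)
      have hl : Lf (((c : ↥(twistedE6 K 2)) : GL chevE6.Idx K)) (φ K w) := by
        rw [← hw]; exact Lf.of w
      have hcm := lf_comm hω h3 (cx_comm hω h3 c) hl
      obtain ⟨u, k, N, h1, h2, h4, h5⟩ := decomp hω h3 hF hp hcm
      refine ⟨k, ((⟨x0 hω h3, hxm⟩ : ↥(Cx hω h3)) ^ k)⁻¹ * c, ?_, by rw [mul_inv_cancel_left]⟩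
      refine ⟨N, ?_, h2, h5⟩
      have h6 := (lf_pow hω h3 k).inv.mul (hl.sc_mul' u)
      rw [h1, inv_mul_cancel_left] at h6
      exact h6)
    (by
      intro k hk
      obtain ⟨M, h1, h2, h4⟩ := hk
      have h5 := lf_pow hω h3 k
      have h6 : M = X0 ω ^ k := lf_unique hω h3 h1 h5 (h4 2 (by decide)) (X0_pow_fix2 hω k)
      have h7 : X0 ω ^ k = X0 ω ^ (k % 5) := by
        conv_lhs => rw [← Nat.div_add_mod k 5, pow_add, pow_mul, X0_five hω, one_pow, one_mul]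
      have h8 : k % 5 = 0 := by
        by_contra hne
        have h9 := X0_seven hω (Nat.mod_lt k (by norm_num)) hne
        rw [← h7, ← h6, show (M : Matrix I27 I27 K) *ᵥ ev 3 = ev 3 from h4 3 (by decide), ev_dec (by decide) (by decide),
          if_neg (by decide)] at h9
        exact zero_ne_one h9
      apply Subtype.ext
      change x0 hω h3 ^ k = 1
      rw [← Nat.div_add_mod k 5, h8, add_zero, pow_mul, x0_five' hω h3, one_pow])
  obtain ⟨e'⟩ := dx_iso hω h3 hF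
  exact ⟨e.trans ((MulEquiv.refl _).prodCongr e')⟩

omit hF in
theorem gt_rel {a b : ↥(twistedE6 K 2)} {s t : chevE6.SteinbergGroup K} (ha : (a : GL chevE6.Idx K) = ((θ K s : ↥(chevE6.group K)) : GL chevE6.Idx K))
    (hb : (b : GL chevE6.Idx K) = ((θ K t : ↥(chevE6.group K)) : GL chevE6.Idx K)) (h : φ K s = φ K t) : a = b := by
  apply Subtype.ext
  rw [ha, hb, th_eq h]

omit h3 hF in
theorem cw : (φ K (sg ω wx0) : Matrix I27 I27 K) = mt ω x0L ∧ (φ K (sg ω wx1) : Matrix I27 I27 K) = mt ω x1L ∧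
    (φ K (sg ω wn) : Matrix I27 I27 K) = mt ω nL ∧ (φ K (sg ω wm) : Matrix I27 I27 K) = mt ω mL ∧
    (φ K (sg ω ws) : Matrix I27 I27 K) = mt ω sL ∧ (φ K (sg ω wq) : Matrix I27 I27 K) = mt ω qL := by
  have h := mt_words
  rw [Bool.and_eq_true, Bool.and_eq_true, Bool.and_eq_true, Bool.and_eq_true, Bool.and_eq_true] at h
  obtain ⟨h0, h1, h2, h4, h5, h6⟩ := h
  have hk : ∀ {l : List (ℕ × ℕ × RV)}, l ∈ [wx0, wx1, wn, wm, ws, wq] → (φ K (sg ω l) : Matrix I27 I27 K) = mt ω (mtw tb (wb l)) := by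
    intro l hl
    rw [φ_sg, mt_mtw hω (okw_of hω hl)]
  refine ⟨?_, ?_, ?_, ?_, ?_, ?_⟩
  · rw [hk (by simp), eqL_sound h0]
  · rw [hk (by simp), eqL_sound h1]
  · rw [hk (by simp), eqL_sound h2]
  · rw [hk (by simp), eqL_sound h4]
  · rw [hk (by simp), eqL_sound h5]
  · rw [hk (by simp), eqL_sound h6]

omit h3 hF in
theorem lens : x0L.length = 27 ∧ x1L.length = 27 ∧ nL.length = 27 ∧ mL.length = 27 ∧ sL.length = 27 ∧ qL.length = 27 := by decide

/-- the other elements -/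
noncomputable abbrev x1 : ↥(twistedE6 K 2) := gt hω h3 wx1 (mem_words (okB_words hω h3) (by simp))
noncomputable abbrev gn : ↥(twistedE6 K 2) := gt hω h3 wn (mem_words (okB_words hω h3) (by simp))
noncomputable abbrev gm : ↥(twistedE6 K 2) := gt hω h3 wm (mem_words (okB_words hω h3) (by simp))
noncomputable abbrev gs : ↥(twistedE6 K 2) := gt hω h3 ws (mem_words (okB_words hω h3) (by simp))
noncomputable abbrev gq : ↥(twistedE6 K 2) := gt hω h3 wq (mem_words (okB_words hω h3) (by simp))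

omit hF in
theorem rels : x0 hω h3 ^ 5 = 1 ∧ x1 hω h3 ^ 5 = 1 ∧ x0 hω h3 * x1 hω h3 = x1 hω h3 * x0 hω h3 ∧
    gn hω h3 * x1 hω h3 = x1 hω h3 ^ 2 * gn hω h3 ∧ gn hω h3 * x0 hω h3 = x0 hω h3 * gn hω h3 ∧
    gm hω h3 * x0 hω h3 = x0 hω h3 ^ 2 * gm hω h3 ∧ gs hω h3 * x0 hω h3 = x1 hω h3 * gs hω h3 ∧
    gq hω h3 * x1 hω h3 = x0 hω h3 * x1 hω h3 * gq hω h3 := by
  obtain ⟨c0, c1, cn, cm, cs, cq⟩ := cw hω
  obtain ⟨l0, l1, ln, lm, ls, lq⟩ := lens hω
  have hr := rel_words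
  rw [Bool.and_eq_true, Bool.and_eq_true, Bool.and_eq_true, Bool.and_eq_true, Bool.and_eq_true, Bool.and_eq_true, Bool.and_eq_true] at hr
  obtain ⟨r1, r2, r3, r4, r5, r6, r7, r8⟩ := hr
  refine ⟨x0_five' hω h3, ?_, ?_, ?_, ?_, ?_, ?_, ?_⟩
  · refine gt_rel hω h3 (s := sg ω wx1 ^ 5) (t := 1) (by rw [map_pow]; rfl) (by rw [map_one]; rfl) (Units.ext ?_)
    rw [map_pow, map_one, Units.val_pow_eq_pow_val, c1, ← mt_powL hω l1, eqL_sound r2, mt_idL, Units.val_one]
  · refine gt_rel hω h3 (s := sg ω wx0 * sg ω wx1) (t := sg ω wx1 * sg ω wx0) (by rw [map_mul]; rfl) (by rw [map_mul]; rfl) (Units.ext ?_)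
    rw [map_mul, map_mul, Units.val_mul, Units.val_mul, c0, c1, ← mt_mulL hω l1, ← mt_mulL hω l0, eqL_sound r3]
  · refine gt_rel hω h3 (s := sg ω wn * sg ω wx1) (t := sg ω wx1 ^ 2 * sg ω wn) (by rw [map_mul]; rfl) (by rw [map_mul, map_pow]; rfl) (Units.ext ?_)
    rw [map_mul, map_mul, map_pow, pow_two, Units.val_mul, Units.val_mul, Units.val_mul, cn, c1, ← mt_mulL hω l1, ← mt_mulL hω l1,
      ← mt_mulL hω ln, eqL_sound r4]
  · refine gt_rel hω h3 (s := sg ω wn * sg ω wx0) (t := sg ω wx0 * sg ω wn) (by rw [map_mul]; rfl) (by rw [map_mul]; rfl) (Units.ext ?_)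
    rw [map_mul, map_mul, Units.val_mul, Units.val_mul, c0, cn, ← mt_mulL hω l0, ← mt_mulL hω ln, eqL_sound r5]
  · refine gt_rel hω h3 (s := sg ω wm * sg ω wx0) (t := sg ω wx0 ^ 2 * sg ω wm) (by rw [map_mul]; rfl) (by rw [map_mul, map_pow]; rfl) (Units.ext ?_)
    rw [map_mul, map_mul, map_pow, pow_two, Units.val_mul, Units.val_mul, Units.val_mul, cm, c0, ← mt_mulL hω l0, ← mt_mulL hω l0,
      ← mt_mulL hω lm, eqL_sound r6]
  · refine gt_rel hω h3 (s := sg ω ws * sg ω wx0) (t := sg ω wx1 * sg ω ws) (by rw [map_mul]; rfl) (by rw [map_mul]; rfl) (Units.ext ?_)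
    rw [map_mul, map_mul, Units.val_mul, Units.val_mul, cs, c0, c1, ← mt_mulL hω l0, ← mt_mulL hω ls, eqL_sound r7]
  · refine gt_rel hω h3 (s := sg ω wq * sg ω wx1) (t := sg ω wx0 * sg ω wx1 * sg ω wq) (by rw [map_mul]; rfl) (by rw [map_mul, map_mul]; rfl)
      (Units.ext ?_)
    rw [map_mul, map_mul, map_mul, Units.val_mul, Units.val_mul, Units.val_mul, cq, c0, c1, ← mt_mulL hω l1, ← mt_mulL hω l1,
      ← mt_mulL hω lq, eqL_sound r8]

omit hF in
theorem x1_notMem : x1 hω h3 ∉ Subgroup.zpowers (x0 hω h3) := by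
  obtain ⟨h1, h2, h4, h5, h6, h7, h8, h9⟩ := rels hω h3
  intro h
  obtain ⟨k, hk⟩ := Subgroup.mem_zpowers_iff.1 h
  have c1 : gn hω h3 * x1 hω h3 = x1 hω h3 * gn hω h3 := by
    rw [← hk]
    exact ((show Commute (gn hω h3) (x0 hω h3) from h6).zpow_right k).eq
  rw [h5, pow_two] at c1
  have c2 : x1 hω h3 = 1 := by
    have := mul_right_cancel c1
    exact mul_eq_left.1 this
  rw [c2, one_mul] at h8
  exact x0_ne hω h3 (mul_eq_left.1 h8)

end

theorem exists_om {K : Type u} [Field K] [Fintype K] [CharP K 2] (hK : Fintype.card K = 4) : ∃ ω : K, ω ^ 2 = ω + 1 :=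
  E6Fi22.exists_omega hK

theorem fact5 {K : Type u} [Field K] [Fintype K] (hK : Fintype.card K = 4) (hc : Nat.gcd 3 (2 + 1) * Nat.card ↥(twistedE6 K 2) =
      2 ^ 36 * (2 ^ 2 - 1) * (2 ^ 5 + 1) * (2 ^ 6 - 1) * (2 ^ 8 - 1) * (2 ^ 9 + 1) * (2 ^ 12 - 1)) :
    (Nat.card ↥(twistedE6 K 2)).factorization 5 = 2 := by
  have h1 : Nat.card ↥(twistedE6 K 2) = 5 ^ 2 * 3061299187350994157568 := by
    have e : 2 ^ 36 * (2 ^ 2 - 1) * (2 ^ 5 + 1) * (2 ^ 6 - 1) * (2 ^ 8 - 1) * (2 ^ 9 + 1) * (2 ^ 12 - 1) = 229597439051324561817600 := by norm_num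
    rw [e, show Nat.gcd 3 (2 + 1) = 3 from rfl] at hc
    omega
  have h2 : ¬ 5 ∣ 3061299187350994157568 := by norm_num
  rw [h1, Nat.factorization_mul (by norm_num) (by norm_num), Finsupp.add_apply, Nat.Prime.factorization_pow (by norm_num),
    Finsupp.single_eq_same, Nat.factorization_eq_zero_of_not_dvd h2]

end Cfsg.Agent.Lib.E6O
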