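import Cfsg.Agent.Lib.ChevSS9

set_option autoImplicit false

/-!
# Coweights modulo `n`: representatives in the alcove (helper36)
-/

namespace Cfsg.Agent.Lib.E7No65
open Cfsg.Lie Cfsg.Agent.Lib.ChevX Cfsg.Agent.Lib.ChevGood Cfsg.Agent.Lib.ChevRel Cfsg.Agent.Lib.ChevNPerm
  Cfsg.Agent.Lib.ChevPoinc Cfsg.Agent.Lib.ChevFix Cfsg.Agent.Lib.ChevHOrder Cfsg.Agent.Lib.ChevTab Cfsg.Agent.Lib.ChevSS

variable {D : ChevalleyDatum} (G : Good D)

/-- representatives modulo `n` in the alcove -/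
theorem exists_alcove {d : ℕ} (hd : CrIdx G d) {M : Fin D.nroots → ℤ} (h : IsCw G M) {n : ℕ} (hn : n ≠ 0)
    (hnd : n.Coprime d) : ∃ M' ∈ Cr D, ∃ u ∈ Wg G, (∀ s, (n : ℤ) ∣ M' s - M (u s)) ∧ (∀ j, 0 ≤ M' (simpF G j)) ∧
      ∀ s, M' s ≤ n := by
  classical
  have h3 : (1 : ℤ) = n * n.gcdA d + d * n.gcdB d := by
    rw [← Nat.gcd_eq_gcd_ab, hnd]; rfl
  set M0 : Fin D.nroots → ℤ := n.gcdB d • ((d : ℤ) • M) with hM0
  have hM0Cr : M0 ∈ Cr D := AddSubgroup.zsmul_mem _ (hd M h) _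
  have hM0d : ∀ s, (n : ℤ) ∣ M0 s - M s := by
    intro s
    refine ⟨- n.gcdA d * M s, ?_⟩
    show n.gcdB d * ((d : ℤ) * M s) - M s = _
    calc n.gcdB d * ((d : ℤ) * M s) - M s = ((d : ℤ) * n.gcdB d - 1) * M s := by ring
      _ = _ := by rw [h3]; ring
  obtain ⟨c0, hc0, hc0m⟩ : ∃ c0 ∈ Cr D, ∀ c ∈ Cr D, fm (M0 + (n : ℤ) • c0) (M0 + (n : ℤ) • c0) ≤
      fm (M0 + (n : ℤ) • c) (M0 + (n : ℤ) • c) := by
    have hex : ∃ k : ℕ, ∃ c ∈ Cr D, fm (M0 + (n : ℤ) • c) (M0 + (n : ℤ) • c) = k :=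
      ⟨_, 0, zero_mem _, (Int.toNat_of_nonneg (fm_nonneg _)).symm⟩
    obtain ⟨c0, hc0, hc0k⟩ := Nat.find_spec hex
    refine ⟨c0, hc0, fun c hc => ?_⟩
    rw [hc0k]
    have h1 := Nat.find_min' hex (m := (fm (M0 + (n : ℤ) • c) (M0 + (n : ℤ) • c)).toNat)
      ⟨c, hc, (Int.toNat_of_nonneg (fm_nonneg _)).symm⟩
    have h2 : ((Nat.find hex : ℕ) : ℤ) ≤ ((fm (M0 + (n : ℤ) • c) (M0 + (n : ℤ) • c)).toNat : ℤ) := by exact_mod_cast h1
    rwa [Int.toNat_of_nonneg (fm_nonneg _)] at h2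
  obtain ⟨M1, hM1⟩ : ∃ M1 : Fin D.nroots → ℤ, M1 = M0 + (n : ℤ) • c0 := ⟨_, rfl⟩
  rw [← hM1] at hc0m
  have hM1Cr : M1 ∈ Cr D := by rw [hM1]; exact add_mem hM0Cr (AddSubgroup.zsmul_mem _ hc0 _)
  have hM1cw : IsCw G M1 := isCw_of_mem G hM1Cr
  have hle : ∀ u ∈ Wg G, ∀ j, M1 (u (simpF G j)) ≤ n := by
    intro u hu j
    have h1 := hc0m (c0 - crc u j) (sub_mem hc0 (crc_mem G hu j))
    have h2 : M0 + (n : ℤ) • (c0 - crc u j) = M1 + (-(n : ℤ)) • crc u j := by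
      rw [hM1, smul_sub, neg_smul]; abel
    rw [h2, fm_add M1, fm_addr, fm_addr, fm_smul, fm_smul, fm_smulr, fm_smulr, fm_comm (crc u j) M1, fm_crc_self] at h1
    have h4 := fm_crc G hM1cw hu j
    have h5 := fm_pos (crt_ne_zero G j)
    set κ := fm (crt D j) (crt D j)
    set a := fm M1 (crc u j)
    by_contra hlt
    rw [not_le] at hlt
    have hn0 : (0 : ℤ) < n := by positivity
    have h6 : (n : ℤ) * κ < M1 (u (simpF G j)) * κ := by nlinarith
    nlinarith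
  obtain ⟨u, hu, hdom⟩ := exists_dom G hM1cw
  refine ⟨M1 ∘ u, Cr_comp G hM1Cr hu, u, hu, fun s => ?_, hdom, fun s => ?_⟩
  · have : (M1 ∘ u) s - M (u s) = (M0 (u s) - M (u s)) + n * c0 (u s) := by
      rw [hM1]
      show M0 (u s) + n * c0 (u s) - M (u s) = _
      ring
    rw [this]
    exact dvd_add (hM0d _) (dvd_mul_right _ _)
  · obtain ⟨u', hu', j, hj⟩ := all_conj G (u s)
    show M1 (u s) ≤ n
    rw [hj]
    exact hle u' hu' j

/-- the twisted relation for the new representative -/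
theorem twist_alcove {M M' : Fin D.nroots → ℤ} {n : ℤ} {u w : Equiv.Perm (Fin D.nroots)} {q : ℤ}
    (h : ∀ s, n ∣ M' s - M (u s)) (hw : ∀ s, n ∣ M (w s) - q * M s) (s : Fin D.nroots) :
    n ∣ M' ((u⁻¹ * w * u : Equiv.Perm (Fin D.nroots)) s) - q * M' s := by
  have h1 := h ((u⁻¹ * w * u : Equiv.Perm (Fin D.nroots)) s)
  have h2 : u ((u⁻¹ * w * u : Equiv.Perm (Fin D.nroots)) s) = w (u s) := by
    simp [Equiv.Perm.mul_apply]
  rw [h2] at h1
  have h3 := hw (u s)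
  have h4 := Dvd.dvd.mul_left (h s) q
  have : M' ((u⁻¹ * w * u : Equiv.Perm (Fin D.nroots)) s) - q * M' s =
      (M' ((u⁻¹ * w * u : Equiv.Perm (Fin D.nroots)) s) - M (w (u s))) + (M (w (u s)) - q * M (u s)) -
        q * (M' s - M (u s)) := by ring
  rw [this]
  exact dvd_sub (dvd_add h1 h3) h4

/-- the coroot of `u α_j` is determined by the root when all coroots have the same length -/
theorem crc_unique (hlen : ∀ j j' : Fin D.rank, fm (crt D j) (crt D j) = fm (crt D j') (crt D j'))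
    {u u' : Equiv.Perm (Fin D.nroots)} (hu : u ∈ Wg G) (hu' : u' ∈ Wg G) {j j' : Fin D.rank}
    (h : u (simpF G j) = u' (simpF G j')) : crc u j = crc u' j' := by
  have h1 : ∀ M, IsCw G M → fm M (crc u j) = fm M (crc u' j') := by
    intro M hM
    have a := fm_crc G hM hu j
    have b := fm_crc G hM hu' j'
    rw [h, hlen j j', ← b] at a
    linarith
  have hc : IsCw G (crc u j + (-1 : ℤ) • crc u' j') :=
    isCw_add G (isCw_of_mem G (crc_mem G hu j)) (isCw_smul G _ (isCw_of_mem G (crc_mem G hu' j')))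
  have h2 := h1 _ hc
  by_contra hne
  have h3 : crc u j + (-1 : ℤ) • crc u' j' ≠ 0 := by
    intro h0
    apply hne
    rw [neg_smul, one_smul, ← sub_eq_add_neg, sub_eq_zero] at h0
    exact h0
  have h4 := fm_pos h3
  rw [fm_addr, fm_smulr, h2] at h4
  linarith

/-- a reflection in `± α_i` -/
theorem refl_eq (hlen : ∀ j j' : Fin D.rank, fm (crt D j) (crt D j) = fm (crt D j') (crt D j'))
    {u : Equiv.Perm (Fin D.nroots)} (hu : u ∈ Wg G) {j i : Fin D.rank}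
    (h : u (simpF G j) = simpF G i ∨ u (simpF G j) = negF G (simpF G i)) {N : Fin D.nroots → ℤ} (hN : IsCw G N) :
    N ∘ (u * refl G j * u⁻¹ : Equiv.Perm (Fin D.nroots)) = N - N (simpF G i) • crt D i := by
  rw [cw_conj G hN hu j]
  rcases h with h | h
  · have h1 : crc u j = crt D i := by
      have := crc_unique G hlen hu (one_mem _) (j' := i) (by rw [h]; rfl)
      rw [this]
      rfl
    rw [h1, h]
  · have h1 : crc u j = - crt D i := by
      have := crc_unique G hlen hu (refl_mem G i) (j' := i) (by rw [h, refl_simpF])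
      rw [this]
      show crt D i ∘ ((refl G i)⁻¹ : Equiv.Perm (Fin D.nroots)) = _
      have h2 : (refl G i)⁻¹ = refl G i := by
        rw [inv_eq_iff_mul_eq_one, refl_mul_self]
      rw [h2, crt_refl]
    rw [h1, h, isCw_negF G hN, smul_neg, neg_smul, _root_.neg_neg]

end Cfsg.Agent.Lib.E7No65
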