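import Cfsg.Agent.Lib.E7No65B

set_option autoImplicit false
set_option maxRecDepth 10000

/-!
# `E₇(2)` has no element of order 65: the Weyl group part (helper36)
-/

namespace Cfsg.Agent.Lib.E7No65
open Cfsg.Lie Cfsg.Agent.Lib.ChevX Cfsg.Agent.Lib.ChevGood Cfsg.Agent.Lib.ChevRel Cfsg.Agent.Lib.ChevNPerm
  Cfsg.Agent.Lib.ChevPoinc Cfsg.Agent.Lib.ChevFix Cfsg.Agent.Lib.ChevHOrder Cfsg.Agent.Lib.ChevTab Cfsg.Agent.Lib.ChevSS

/-- type `E₇` -/
noncomputable abbrev GE : Good chevE7 := ChevOkE7.good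

theorem dotN_ofFn : ∀ (l : List ℕ) (n : ℕ) (m : Fin n → ℕ), dotN l (List.ofFn m) = ∑ j : Fin n, l.getD j 0 * m j
  | [], n, m => by
    have : dotN [] (List.ofFn m) = 0 := by
      cases n <;> rfl
    rw [this]
    simp
  | a :: l, 0, m => by simp [dotN]
  | a :: l, n + 1, m => by
    rw [List.ofFn_succ, Fin.sum_univ_succ]
    show a * m 0 + dotN l _ = _
    rw [dotN_ofFn l n]
    simp

theorem mem_tup : ∀ (a m : List ℕ) (n : ℕ), a.length = m.length → (∀ x ∈ a, 1 ≤ x) → dotN a m ≤ n → m ∈ tup a n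
  | [], [], _, _, _, _ => by simp [tup]
  | [], _ :: _, _, h, _, _ => by simp at h
  | _ :: _, [], _, h, _, _ => by simp at h
  | a :: l, k :: m, n, h, h1, h2 => by
    have e1 : a * k + dotN l m ≤ n := h2
    have e2 : 1 ≤ a := h1 a List.mem_cons_self
    have e3 : k ≤ a * k := by nlinarith
    simp only [tup, List.mem_flatMap, List.mem_range]
    refine ⟨k, by omega, ?_⟩
    rw [if_pos (by omega), List.mem_map]
    exact ⟨m, mem_tup l m _ (by simpa using h) (fun x hx => h1 x (List.mem_cons_of_mem _ hx)) (by omega), rfl⟩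

theorem rv_eq (s : Fin 126) (j : Fin 7) : GE.rv s j = rvT ChevDataE7.A s j := rfl

/-- values modulo 13 -/
theorem val13 {M : Fin chevE7.nroots → ℤ} (hM : IsCw GE M) (m : Fin 7 → ℕ) (hm : ∀ j : Fin 7, M (simpF GE j) = m j)
    (s : Fin 126) : ((M s : ℤ) : ZMod 13) = (dotN (r13.getD s []) (List.ofFn m) : ZMod 13) := by
  have h1 : M s = ∑ j : Fin 7, rvT ChevDataE7.A s j * (m j : ℤ) := by
    rw [hM s]
    exact Finset.sum_congr rfl fun j _ => by rw [hm j]; rfl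
  rw [h1, dotN_ofFn]
  push_cast
  refine Finset.sum_congr rfl fun j _ => ?_
  congr 1
  have h2 := r13_ok s s.2 j j.2
  have h3 : ((rvT ChevDataE7.A s j - ((r13.getD s []).getD j 0 : ℤ) : ℤ) : ZMod 13) = 0 := by
    rw [ZMod.intCast_zmod_eq_zero_iff_dvd]
    exact Int.dvd_of_emod_eq_zero h2
  push_cast at h3
  exact sub_eq_zero.mp h3

theorem ps_eq {M : Fin chevE7.nroots → ℤ} (hM : IsCw GE M) (m : Fin 7 → ℕ) (hm : ∀ j : Fin 7, M (simpF GE j) = m j) (e : ℕ) :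
    (ps (List.ofFn m) e : ZMod 13) = ∑ s : Fin 126, ((M s : ℤ) : ZMod 13) ^ e := by
  unfold ps
  rw [ZMod.natCast_mod]
  have h1 : (r13.map (fun r => (dotN r (List.ofFn m)) ^ e)) =
      (List.finRange 126).map (fun s : Fin 126 => (dotN (r13.getD s []) (List.ofFn m)) ^ e) := by
    conv_lhs => rw [r13_map]
    rw [List.map_map]
    rfl
  rw [h1, Fin.sum_univ_def, Nat.cast_list_sum, List.map_map]
  congr 1
  apply List.map_congr_left
  intro s _
  rw [val13 hM m hm s]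
  simp

/-- the power sums of a twisted coweight vanish -/
theorem sum_zero {M : Fin chevE7.nroots → ℤ} {w : Equiv.Perm (Fin chevE7.nroots)} (hw : ∀ s, (13 : ℤ) ∣ M (w s) - 2 * M s)
    (e : ℕ) (he : (2 : ZMod 13) ^ e ≠ 1) : ∑ s : Fin 126, ((M s : ℤ) : ZMod 13) ^ e = 0 := by
  have h1 : ∑ s : Fin 126, ((M s : ℤ) : ZMod 13) ^ e = ∑ s : Fin 126, ((M (w s) : ℤ) : ZMod 13) ^ e :=
    (Equiv.sum_comp w (fun s : Fin chevE7.nroots => ((M s : ℤ) : ZMod 13) ^ e)).symm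
  have h2 : ∀ s : Fin 126, ((M (w s) : ℤ) : ZMod 13) = 2 * ((M s : ℤ) : ZMod 13) := by
    intro s
    have h3 : ((M (w s) - 2 * M s : ℤ) : ZMod 13) = 0 := by
      rw [ZMod.intCast_zmod_eq_zero_iff_dvd]
      exact hw s
    push_cast at h3
    exact sub_eq_zero.mp h3
  have h4 : ∑ s : Fin 126, ((M (w s) : ℤ) : ZMod 13) ^ e = 2 ^ e * ∑ s : Fin 126, ((M s : ℤ) : ZMod 13) ^ e := by
    rw [Finset.mul_sum]
    exact Finset.sum_congr rfl fun s _ => by rw [h2 s, mul_pow]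
  rw [h4] at h1
  have h5 : ((2 : ZMod 13) ^ e - 1) * ∑ s : Fin 126, ((M s : ℤ) : ZMod 13) ^ e = 0 := by
    rw [sub_mul, one_mul, ← h1, sub_self]
  have : Fact (Nat.Prime 13) := ⟨by norm_num⟩
  rcases mul_eq_zero.mp h5 with h6 | h6
  · exact absurd (sub_eq_zero.mp h6) he
  · exact h6

/-- parity in the coroot lattice -/
theorem parity {M : Fin chevE7.nroots → ℤ} (hM : M ∈ Cr chevE7) :
    (2 : ℤ) ∣ M (simpF GE (1 : Fin 7)) + M (simpF GE (4 : Fin 7)) + M (simpF GE (6 : Fin 7)) := by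
  unfold Cr at hM
  induction hM using AddSubgroup.closure_induction with
  | mem x hx =>
    obtain ⟨i, rfl⟩ := hx
    exact Int.dvd_of_emod_eq_zero (par_ok i)
  | zero => exact ⟨0, rfl⟩
  | add x y _ _ hx hy =>
    obtain ⟨a, ha⟩ := hx
    obtain ⟨b, hb⟩ := hy
    refine ⟨a + b, ?_⟩
    show x (simpF GE (1 : Fin 7)) + y (simpF GE (1 : Fin 7)) + (x (simpF GE (4 : Fin 7)) + y (simpF GE (4 : Fin 7))) + (x (simpF GE (6 : Fin 7)) + y (simpF GE (6 : Fin 7))) = _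
    linarith
  | neg x _ hx =>
    obtain ⟨a, ha⟩ := hx
    refine ⟨-a, ?_⟩
    show - x (simpF GE (1 : Fin 7)) + - x (simpF GE (4 : Fin 7)) + - x (simpF GE (6 : Fin 7)) = _
    linarith

/-- the only alcove point -/
theorem unique_point {M : Fin chevE7.nroots → ℤ} (hM : M ∈ Cr chevE7) (hdom : ∀ j, 0 ≤ M (simpF GE j)) (hle : ∀ s, M s ≤ 13)
    {w : Equiv.Perm (Fin chevE7.nroots)} (hw : ∀ s, (13 : ℤ) ∣ M (w s) - 2 * M s) (hne : ∃ s, ¬ (13 : ℤ) ∣ M s) :
    ∀ j : Fin 7, M (simpF GE j) = ((([1, 0, 1, 1, 0, 1, 0] : List ℕ).getD j 0 : ℕ) : ℤ) := by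
  have hcw := isCw_of_mem GE hM
  let m : Fin 7 → ℕ := fun j => (M (simpF GE j)).toNat
  have hm : ∀ j : Fin 7, M (simpF GE j) = m j := fun j => (Int.toNat_of_nonneg (hdom j)).symm
  have hps : ∀ e : ℕ, (2 : ZMod 13) ^ e ≠ 1 → ps (List.ofFn m) e = 0 := by
    intro e he
    have h1 := ps_eq hcw m hm e
    rw [sum_zero hw e he, ZMod.natCast_eq_zero_iff] at h1
    exact Nat.eq_zero_of_dvd_of_lt h1 (Nat.mod_lt _ (by norm_num))
  have hmem : List.ofFn m ∈ tup [2, 2, 3, 4, 3, 2, 1] 13 := by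
    apply mem_tup _ _ _ (by simp) (by decide)
    rw [dotN_ofFn]
    have h1 := hle (⟨125, by decide⟩ : Fin chevE7.nroots)
    rw [hcw] at h1
    have h2 : ∑ j : Fin chevE7.rank, GE.rv ((⟨125, by decide⟩ : Fin chevE7.nroots) : ℕ) j * M (simpF GE j) =
        ((∑ j : Fin 7, ([2, 2, 3, 4, 3, 2, 1] : List ℕ).getD j 0 * m j : ℕ) : ℤ) := by
      push_cast
      refine Finset.sum_congr rfl fun j _ => ?_
      rw [hm j]
      congr 1
      exact theta_ok j
    rw [h2] at h1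
    exact_mod_cast h1
  have hchk := List.all_eq_true.mp chk_ok _ hmem
  have hpar : (m 1 + m 4 + m 6) % 2 = 0 := by
    have := parity hM
    rw [hm 1, hm 4, hm 6] at this
    have h2 : (2 : ℤ) ∣ ((m 1 + m 4 + m 6 : ℕ) : ℤ) := by push_cast; exact this
    exact Nat.mod_eq_zero_of_dvd (by exact_mod_cast h2)
  have hg : ∀ j : Fin 7, (List.ofFn m).getD j 0 = m j := by
    intro j
    fin_cases j <;> rfl
  unfold chk at hchk
  have g1 := hg 1
  have g4 := hg 4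
  have g6 := hg 6
  simp only [Fin.isValue, Fin.val_one, show ((4 : Fin 7) : ℕ) = 4 from rfl, show ((6 : Fin 7) : ℕ) = 6 from rfl] at g1 g4 g6
  rw [g1, g4, g6, hpar, hps 2 (by decide), hps 4 (by decide), hps 6 (by decide), hps 8 (by decide), hps 10 (by decide)] at hchk
  simp only [bne_self_eq_false, Bool.false_or, Bool.or_eq_true, decide_eq_true_eq] at hchk
  rcases hchk with hc | hc
  · intro j
    rw [hm j, ← hg j, hc]
  · exfalso
    obtain ⟨s, hs⟩ := hne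
    apply hs
    rw [hcw s]
    apply Finset.dvd_sum
    intro j _
    apply Dvd.dvd.mul_left
    rw [hm j]
    rw [List.all_eq_true] at hc
    have := hc (m j) (by rw [List.mem_ofFn]; exact ⟨j, rfl⟩)
    have h2 := Nat.dvd_of_mod_eq_zero (beq_iff_eq.mp this)
    exact_mod_cast h2

end Cfsg.Agent.Lib.E7No65
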