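import Cfsg.Agent.Lib.E7No65C

set_option autoImplicit false
set_option maxRecDepth 10000

/-!
# `E₇(2)` has no element of order 65: the Weyl group part, conclusion (helper36)
-/

namespace Cfsg.Agent.Lib.E7No65
open Cfsg.Lie Cfsg.Agent.Lib.ChevX Cfsg.Agent.Lib.ChevGood Cfsg.Agent.Lib.ChevRel Cfsg.Agent.Lib.ChevNPerm
  Cfsg.Agent.Lib.ChevPoinc Cfsg.Agent.Lib.ChevFix Cfsg.Agent.Lib.ChevHOrder Cfsg.Agent.Lib.ChevTab Cfsg.Agent.Lib.ChevSS

/-- fundamental roots -/
noncomputable abbrev sr (j : Fin 7) : Fin chevE7.nroots := simpF GE j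

/-- fundamental coroots -/
abbrev cr (j : Fin 7) : Fin chevE7.nroots → ℤ := crt chevE7 j

/-- products of the three commuting reflections -/
noncomputable def act (a b c : Bool) (N : Fin chevE7.nroots → ℤ) : Fin chevE7.nroots → ℤ :=
  N - (if a then N (sr 1) else 0) • cr 1 - (if b then N (sr 4) else 0) • cr 4 - (if c then N (sr 6) else 0) • cr 6

theorem cr_val (i j : Fin 7) (hi : i ∈ ([1, 4, 6] : List (Fin 7))) (hj : j ∈ ([1, 4, 6] : List (Fin 7))) :
    cr i (sr j) = if i = j then 2 else 0 := orth_ok i hi j hj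

theorem act_one (a b c : Bool) (N : Fin chevE7.nroots → ℤ) : act a b c N (sr 1) = if a then - N (sr 1) else N (sr 1) := by
  have h1 : act a b c N (sr 1) = N (sr 1) - (if a then N (sr 1) else 0) * cr 1 (sr 1) -
    (if b then N (sr 4) else 0) * cr 4 (sr 1) - (if c then N (sr 6) else 0) * cr 6 (sr 1) := rfl
  rw [h1, cr_val 1 1 (by decide) (by decide), cr_val 4 1 (by decide) (by decide), cr_val 6 1 (by decide) (by decide)]
  cases a <;> simp
  ring

theorem act_four (a b c : Bool) (N : Fin chevE7.nroots → ℤ) : act a b c N (sr 4) = if b then - N (sr 4) else N (sr 4) := by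
  have h1 : act a b c N (sr 4) = N (sr 4) - (if a then N (sr 1) else 0) * cr 1 (sr 4) -
    (if b then N (sr 4) else 0) * cr 4 (sr 4) - (if c then N (sr 6) else 0) * cr 6 (sr 4) := rfl
  rw [h1, cr_val 1 4 (by decide) (by decide), cr_val 4 4 (by decide) (by decide), cr_val 6 4 (by decide) (by decide)]
  cases b <;> simp
  ring

theorem act_six (a b c : Bool) (N : Fin chevE7.nroots → ℤ) : act a b c N (sr 6) = if c then - N (sr 6) else N (sr 6) := by
  have h1 : act a b c N (sr 6) = N (sr 6) - (if a then N (sr 1) else 0) * cr 1 (sr 6) -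
    (if b then N (sr 4) else 0) * cr 4 (sr 6) - (if c then N (sr 6) else 0) * cr 6 (sr 6) := rfl
  rw [h1, cr_val 1 6 (by decide) (by decide), cr_val 4 6 (by decide) (by decide), cr_val 6 6 (by decide) (by decide)]
  cases c <;> simp
  ring

theorem act_act (a b c a' b' c' : Bool) (N : Fin chevE7.nroots → ℤ) :
    act a' b' c' (act a b c N) = act (xor a a') (xor b b') (xor c c') N := by
  have h1 := act_one a b c N
  have h4 := act_four a b c N
  have h6 := act_six a b c N
  funext s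
  have e1 : act a' b' c' (act a b c N) s = act a b c N s - (if a' then act a b c N (sr 1) else 0) * cr 1 s -
    (if b' then act a b c N (sr 4) else 0) * cr 4 s - (if c' then act a b c N (sr 6) else 0) * cr 6 s := rfl
  have e2 : ∀ x y z : Bool, act x y z N s = N s - (if x then N (sr 1) else 0) * cr 1 s -
    (if y then N (sr 4) else 0) * cr 4 s - (if z then N (sr 6) else 0) * cr 6 s := fun _ _ _ => rfl
  rw [e1, h1, h4, h6, e2, e2]
  cases a <;> cases b <;> cases c <;> cases a' <;> cases b' <;> cases c' <;> simp <;> ring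

theorem act_ff (N : Fin chevE7.nroots → ℤ) : act false false false N = N := by
  funext s
  have e2 : act false false false N s = N s - 0 * cr 1 s - 0 * cr 4 s - 0 * cr 6 s := rfl
  rw [e2]; ring

theorem len_eq (j j' : Fin chevE7.rank) : fm (crt chevE7 j) (crt chevE7 j) = fm (crt chevE7 j') (crt chevE7 j') :=
  (len_ok j).trans (len_ok j').symm

/-- the stabilizer of the special point -/
theorem rg_form {M : Fin chevE7.nroots → ℤ} (hM : IsCw GE M)
    (hv : ∀ j : Fin 7, M (simpF GE j) = ((([1, 0, 1, 1, 0, 1, 0] : List ℕ).getD j 0 : ℕ) : ℤ))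
    {v : Equiv.Perm (Fin chevE7.nroots)} (h : v ∈ RG GE (fun s => (13 : ℤ) ∣ M s)) :
    ∃ a b c : Bool, ∀ N, IsCw GE N → N ∘ v = act a b c N := by
  have hgen : ∀ x : Equiv.Perm (Fin chevE7.nroots), (∃ u ∈ Wg GE, ∃ j, (13 : ℤ) ∣ M (u (simpF GE j)) ∧ x = u * refl GE j * u⁻¹) →
      x ∈ Wg GE ∧ ∃ a b c : Bool, ∀ N, IsCw GE N → N ∘ x = act a b c N := by
    rintro x ⟨u, hu, j, hj, rfl⟩
    refine ⟨mul_mem (mul_mem hu (refl_mem GE j)) (inv_mem hu), ?_⟩
    have h1 : M (u (simpF GE j)) = ∑ i : Fin 7, rvT ChevDataE7.A (u (simpF GE j) : ℕ) i *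
        ((([1, 0, 1, 1, 0, 1, 0] : List ℕ).getD i 0 : ℕ) : ℤ) := by
      rw [hM]
      exact Finset.sum_congr rfl fun i _ => by rw [hv i]; rfl
    rw [h1] at hj
    have h2 := zero_ok (u (simpF GE j)) (Int.emod_eq_zero_of_dvd hj)
    have key : ∀ i : Fin 7, ((u (simpF GE j) : ℕ) = chevE7.simple i ∨ (u (simpF GE j) : ℕ) = chevE7.neg (chevE7.simple i)) →
        ∀ N, IsCw GE N → N ∘ (u * refl GE j * u⁻¹ : Equiv.Perm (Fin chevE7.nroots)) = N - N (sr i) • cr i := by
      intro i hi N hN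
      apply refl_eq GE len_eq hu _ hN
      rcases hi with hi | hi
      · exact Or.inl (Fin.ext hi)
      · exact Or.inr (Fin.ext hi)
    have e2 : ∀ x y z : Bool, ∀ N : Fin chevE7.nroots → ℤ, act x y z N = N - (if x then N (sr 1) else 0) • cr 1 -
      (if y then N (sr 4) else 0) • cr 4 - (if z then N (sr 6) else 0) • cr 6 := fun _ _ _ _ => rfl
    have c1 : ((u (simpF GE j) : ℕ) = chevE7.simple (1 : Fin 7) ∨ (u (simpF GE j) : ℕ) = chevE7.neg (chevE7.simple (1 : Fin 7))) ∨
        ((u (simpF GE j) : ℕ) = chevE7.simple (4 : Fin 7) ∨ (u (simpF GE j) : ℕ) = chevE7.neg (chevE7.simple (4 : Fin 7))) ∨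
        ((u (simpF GE j) : ℕ) = chevE7.simple (6 : Fin 7) ∨ (u (simpF GE j) : ℕ) = chevE7.neg (chevE7.simple (6 : Fin 7))) := by
      rcases h2 with h2 | h2 | h2 | h2 | h2 | h2
      · exact Or.inl (Or.inl h2)
      · exact Or.inl (Or.inr h2)
      · exact Or.inr (Or.inl (Or.inl h2))
      · exact Or.inr (Or.inl (Or.inr h2))
      · exact Or.inr (Or.inr (Or.inl h2))
      · exact Or.inr (Or.inr (Or.inr h2))
    rcases c1 with c1 | c1 | c1
    · exact ⟨true, false, false, fun N hN => by rw [key 1 c1 N hN, e2]; simp⟩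
    · exact ⟨false, true, false, fun N hN => by rw [key 4 c1 N hN, e2]; simp⟩
    · exact ⟨false, false, true, fun N hN => by rw [key 6 c1 N hN, e2]; simp⟩
  have hall : v ∈ Wg GE ∧ ∃ a b c : Bool, ∀ N, IsCw GE N → N ∘ v = act a b c N := by
    unfold RG at h
    induction h using Subgroup.closure_induction with
    | mem x hx => exact hgen x hx
    | one => exact ⟨one_mem _, false, false, false, fun N _ => by rw [act_ff]; rfl⟩
    | mul x y _ _ hx hy =>
      obtain ⟨hxW, a, b, c, h1⟩ := hx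
      obtain ⟨hyW, a', b', c', h2⟩ := hy
      refine ⟨mul_mem hxW hyW, xor a a', xor b b', xor c c', fun N hN => ?_⟩
      have e1 : N ∘ (x * y : Equiv.Perm (Fin chevE7.nroots)) = (N ∘ x) ∘ y := rfl
      rw [e1, h2 _ (isCw_comp GE hN (lin_of_mem GE hxW)), h1 N hN, act_act]
    | inv x _ hx =>
      obtain ⟨hxW, a, b, c, h1⟩ := hx
      refine ⟨inv_mem hxW, a, b, c, fun N hN => ?_⟩
      have hN' : IsCw GE (N ∘ (x⁻¹ : Equiv.Perm (Fin chevE7.nroots))) := isCw_comp GE hN (lin_of_mem GE (inv_mem hxW))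
      have h2 := h1 _ hN'
      have e1 : (N ∘ (x⁻¹ : Equiv.Perm (Fin chevE7.nroots))) ∘ x = N := by
        funext s
        simp
      rw [e1] at h2
      have h3 := congrArg (act a b c) h2
      rw [act_act, Bool.xor_self, Bool.xor_self, Bool.xor_self, act_ff] at h3
      exact h3.symm
  exact hall.2

/-- the permutation `w₁` -/
noncomputable def w1 : Equiv.Perm (Fin chevE7.nroots) := (ww.map (fun i : Fin 7 => refl GE i)).prod

theorem word_val (l : List (Fin 7)) (s : Fin chevE7.nroots) :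
    (((l.map (fun i : Fin 7 => refl GE i)).prod s : Fin chevE7.nroots) : ℕ) = l.foldr (fun (i : Fin 7) (s : ℕ) => chevE7.reflectRoot (i : ℕ) s) (s : ℕ) := by
  induction l with
  | nil => rfl
  | cons i l ih =>
    rw [List.map_cons, List.prod_cons, Equiv.Perm.mul_apply]
    show chevE7.reflectRoot (i : ℕ) (((l.map (fun i : Fin 7 => refl GE i)).prod s : Fin chevE7.nroots) : ℕ) = _
    rw [ih]
    rfl

theorem w1_mem : w1 ∈ Wg GE := by
  unfold w1
  apply Subgroup.list_prod_mem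
  intro x hx
  rw [List.mem_map] at hx
  obtain ⟨i, _, rfl⟩ := hx
  exact refl_mem GE i

theorem w1_val (k : Fin 7) : ((w1 (simpF GE k) : Fin chevE7.nroots) : ℕ) = tt.getD k 0 := by
  rw [w1, word_val]
  exact tt_ok k

/-- **the Weyl group statement** -/
theorem no_pair {w : Equiv.Perm (Fin chevE7.nroots)} (hw : w ∈ Wg GE) {M N : Fin chevE7.nroots → ℤ} (hM : IsCw GE M) (hN : IsCw GE N)
    (h13 : ∀ s, (13 : ℤ) ∣ M (w s) - 2 * M s) (h5 : ∀ s, (5 : ℤ) ∣ N (w s) - 2 * N s) (hM0 : ∃ s, ¬ (13 : ℤ) ∣ M s) :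
    ∀ s, (5 : ℤ) ∣ N s := by
  obtain ⟨M', hM'Cr, u, hu, hMM', hdom, hle⟩ := exists_alcove GE (crIdx GE cdE7) hM (n := 13) (by norm_num) (by norm_num)
  have hM' : IsCw GE M' := isCw_of_mem GE hM'Cr
  have hw' : (u⁻¹ * w * u : Equiv.Perm (Fin chevE7.nroots)) ∈ Wg GE := mul_mem (mul_mem (inv_mem hu) hw) hu
  have h13' := twist_alcove (q := 2) hMM' h13
  have h5' : ∀ s, (5 : ℤ) ∣ (N ∘ u) ((u⁻¹ * w * u : Equiv.Perm (Fin chevE7.nroots)) s) - 2 * (N ∘ u) s :=
    twist_alcove (q := 2) (n := 5) (M := N) (M' := N ∘ u) (u := u) (fun s => by simp) h5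
  have hNu : IsCw GE (N ∘ u) := isCw_comp GE hN (lin_of_mem GE hu)
  set w' := (u⁻¹ * w * u : Equiv.Perm (Fin chevE7.nroots))
  have hM0' : ∃ s, ¬ (13 : ℤ) ∣ M' s := by
    obtain ⟨s, hs⟩ := hM0
    refine ⟨u⁻¹ s, fun h => hs ?_⟩
    have h1 := hMM' (u⁻¹ s)
    rw [show u (u⁻¹ s) = s by simp] at h1
    have h2 := dvd_sub h h1
    rwa [sub_sub_cancel] at h2
  have hpt := unique_point hM'Cr hdom hle h13' hM0'
  -- `w₁`
  have hw1 : ∀ s, (13 : ℤ) ∣ M' (w1 s) - 2 * M' s := by
    have hcw : IsCw GE (M' ∘ w1 + (-2 : ℤ) • M') := isCw_add GE (isCw_comp GE hM' (lin_of_mem GE w1_mem)) (isCw_smul GE _ hM')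
    intro s
    have e1 : M' (w1 s) - 2 * M' s = (M' ∘ w1 + (-2 : ℤ) • M') s := by
      show _ = M' (w1 s) + (-2) * M' s
      ring
    rw [e1, hcw s]
    apply Finset.dvd_sum
    intro k _
    apply Dvd.dvd.mul_left
    have e2 : (M' ∘ w1 + (-2 : ℤ) • M') (simpF GE k) = M' (w1 (simpF GE k)) - 2 * M' (simpF GE k) := by
      show M' (w1 (simpF GE k)) + (-2) * M' (simpF GE k) = _
      ring
    rw [e2, hpt k, hM' (w1 (simpF GE k))]
    have e3 : ∑ j : Fin chevE7.rank, GE.rv ((w1 (simpF GE k) : Fin chevE7.nroots) : ℕ) j * M' (simpF GE j) =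
        ∑ j : Fin 7, rvT ChevDataE7.A (tt.getD k 0) j * ((([1, 0, 1, 1, 0, 1, 0] : List ℕ).getD j 0 : ℕ) : ℤ) :=
      Finset.sum_congr rfl fun j _ => by rw [hpt j, w1_val k]; rfl
    rw [e3]
    exact Int.dvd_of_emod_eq_zero (tt_two k)
  -- `v`
  have hv : w' * w1⁻¹ ∈ RG GE (fun s => (13 : ℤ) ∣ M' s) := by
    have := stab_mod GE noMinE7 (crIdx GE cdE7) hM' (n := 13) (by norm_num) (by norm_num) (mul_mem hw' (inv_mem w1_mem)) ?_
    · exact this
    · intro s
      have a := h13' (w1⁻¹ s)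
      have b := hw1 (w1⁻¹ s)
      rw [show w1 (w1⁻¹ s) = s by simp] at b
      have := dvd_sub a b
      have e : M' ((w' * w1⁻¹ : Equiv.Perm (Fin chevE7.nroots)) s) - M' s =
          M' (w' (w1⁻¹ s)) - 2 * M' (w1⁻¹ s) - (M' s - 2 * M' (w1⁻¹ s)) := by
        rw [Equiv.Perm.mul_apply]; ring
      rw [e]
      exact this
  obtain ⟨a, b, c, habc⟩ := rg_form hM' hpt hv
  have hN1 := habc _ hNu
  obtain ⟨P, hP⟩ : ∃ P, P = N ∘ u := ⟨_, rfl⟩
  rw [← hP] at hN1 hNu h5'
  -- the linear system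
  have hsys : ∀ k : Fin 7, (5 : ℤ) ∣ ∑ j : Fin 7, AA a b c k j * P (sr j) := by
    intro k
    have e1 := h5' (simpF GE k)
    have e2 : P (w' (simpF GE k)) = act a b c P (w1 (simpF GE k)) := by
      rw [← hN1]
      show P (w' (simpF GE k)) = P (w' (w1⁻¹ (w1 (simpF GE k))))
      simp
    rw [e2] at e1
    have e3 : act a b c P (w1 (simpF GE k)) = P (w1 (simpF GE k)) - (if a then P (sr 1) else 0) * cr 1 (w1 (simpF GE k)) -
      (if b then P (sr 4) else 0) * cr 4 (w1 (simpF GE k)) - (if c then P (sr 6) else 0) * cr 6 (w1 (simpF GE k)) := rfl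
    have e4 : ∀ i : Fin 7, cr i (w1 (simpF GE k)) = chevE7.cartan i (tt.getD k 0) := by
      intro i
      show chevE7.cartan i ((w1 (simpF GE k) : Fin chevE7.nroots) : ℕ) = _
      rw [w1_val]
    have e5 : P (w1 (simpF GE k)) = ∑ j : Fin 7, rvT ChevDataE7.A (tt.getD k 0) j * P (sr j) := by
      rw [hNu (w1 (simpF GE k))]
      exact Finset.sum_congr rfl fun j _ => by rw [w1_val k]; rfl
    rw [e3, e4, e4, e4, e5] at e1
    have e6 : ∑ j : Fin 7, AA a b c k j * P (sr j) = ∑ j : Fin 7, rvT ChevDataE7.A (tt.getD k 0) j * P (sr j) -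
        (if a then P (sr 1) else 0) * chevE7.cartan (1 : Fin 7) (tt.getD k 0) - (if b then P (sr 4) else 0) * chevE7.cartan (4 : Fin 7) (tt.getD k 0) -
        (if c then P (sr 6) else 0) * chevE7.cartan (6 : Fin 7) (tt.getD k 0) - 2 * P (sr k) := by
      simp only [AA, sub_mul, Finset.sum_sub_distrib]
      congr 1
      · congr 1
        · congr 1
          · congr 1
            rw [Finset.sum_eq_single (1 : Fin 7)]
            · cases a <;> simp [mul_comm]
            · intro j _ hj; simp [hj]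
            · intro h; exact absurd (Finset.mem_univ _) h
          · rw [Finset.sum_eq_single (4 : Fin 7)]
            · cases b <;> simp [mul_comm]
            · intro j _ hj; simp [hj]
            · intro h; exact absurd (Finset.mem_univ _) h
        · rw [Finset.sum_eq_single (6 : Fin 7)]
          · cases c <;> simp [mul_comm]
          · intro j _ hj; simp [hj]
          · intro h; exact absurd (Finset.mem_univ _) h
      · rw [Finset.sum_eq_single k]
        · simp
        · intro j _ hj; simp [Ne.symm hj]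
        · intro h; exact absurd (Finset.mem_univ _) h
    rw [e6]
    exact e1
  have hsol : ∀ i : Fin 7, (5 : ℤ) ∣ P (sr i) := by
    intro i
    have e1 : (5 : ℤ) ∣ ∑ k : Fin 7, BB a b c i k * ∑ j : Fin 7, AA a b c k j * P (sr j) :=
      Finset.dvd_sum fun k _ => Dvd.dvd.mul_left (hsys k) _
    have e2 : ∑ k : Fin 7, BB a b c i k * ∑ j : Fin 7, AA a b c k j * P (sr j) =
        ∑ j : Fin 7, (∑ k : Fin 7, BB a b c i k * AA a b c k j) * P (sr j) := by
      simp only [Finset.mul_sum, Finset.sum_mul]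
      rw [Finset.sum_comm]
      exact Finset.sum_congr rfl fun _ _ => Finset.sum_congr rfl fun _ _ => by ring
    rw [e2] at e1
    have e3 : ∀ j : Fin 7, (5 : ℤ) ∣ (∑ k : Fin 7, BB a b c i k * AA a b c k j - (if i = j then 1 else 0)) * P (sr j) :=
      fun j => Dvd.dvd.mul_right (Int.dvd_of_emod_eq_zero (inv_ok a b c i j)) _
    have e4 := dvd_sub e1 (Finset.dvd_sum fun j (_ : j ∈ Finset.univ) => e3 j)
    rw [← Finset.sum_sub_distrib] at e4
    have e5 : ∑ j : Fin 7, ((∑ k : Fin 7, BB a b c i k * AA a b c k j) * P (sr j) -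
        (∑ k : Fin 7, BB a b c i k * AA a b c k j - (if i = j then 1 else 0)) * P (sr j)) = P (sr i) := by
      rw [Finset.sum_eq_single i]
      · rw [if_pos rfl]; ring
      · intro j _ hj; simp [Ne.symm hj]
      · intro h; exact absurd (Finset.mem_univ _) h
    rw [e5] at e4
    exact e4
  intro s
  have h1 : (5 : ℤ) ∣ P (u⁻¹ s) := by
    rw [hNu (u⁻¹ s)]
    exact Finset.dvd_sum fun j _ => Dvd.dvd.mul_left (hsol j) _
  have h2 : P (u⁻¹ s) = N s := by
    rw [hP]
    show N (u (u⁻¹ s)) = N s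
    simp
  rwa [h2] at h1

end Cfsg.Agent.Lib.E7No65
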