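import Cfsg.Agent.Lib.E7No65D

set_option autoImplicit false
set_option maxRecDepth 10000

/-!
# `E₇(2)` has no element of order 65 (helper36)
-/

namespace Cfsg.Agent.Lib.E7No65
open Cfsg.Lie Cfsg.Agent.Lib.ChevX Cfsg.Agent.Lib.ChevGood Cfsg.Agent.Lib.ChevRel Cfsg.Agent.Lib.ChevNPerm
  Cfsg.Agent.Lib.ChevPoinc Cfsg.Agent.Lib.ChevFix Cfsg.Agent.Lib.ChevHOrder Cfsg.Agent.Lib.ChevTab Cfsg.Agent.Lib.ChevSS
  Cfsg.Agent.Lib.ChevTorus
open Cfsg.Agent.Lib.ChevBruhat (Listed)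

/-- **semisimple elements and coweights** -/
theorem exists_coweight {D : ChevalleyDatum} (G : Good D) (hD : Listed D) (hmin : NoMin G) {d : ℕ} (cd : CertD D d)
    {F : Type*} [Field F] [Fintype F] {q : ℕ} (hq : Fintype.card F = q) (p : ℕ) [Fact p.Prime] [CharP F p]
    (hcop : ∀ n : ℕ, n.Coprime p → n.Coprime d) {x : GL D.Idx F} (hx : x ∈ D.group F) {n : ℕ} (hn : n ≠ 0) (hxn : x ^ n = 1)
    (hnp : n.Coprime p) :
    ∃ w ∈ Wg G, ∃ M : Fin D.nroots → ℤ, IsCw G M ∧ (∀ s, (n : ℤ) ∣ M (w s) - q * M s) ∧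
      ∀ m : ℕ, (∀ s, (n : ℤ) ∣ m * M s) → x ^ m = 1 := by
  classical
  have hch : CharP (AlgebraicClosure F) p := charP_of_injective_algebraMap (algebraMap F (AlgebraicClosure F)).injective p
  obtain ⟨Z⟩ := exists_setup F hq p
  obtain ⟨χ, hχ⟩ := rel_exists G Z hD hmin cd hcop hx (Nat.Coprime.coprime_dvd_left (orderOf_dvd_of_pow_eq_one hxn) hnp)
  obtain ⟨⟨w, hw⟩, hwχ⟩ := χ.2
  obtain ⟨g, hg, t, ht, htχ, hxt⟩ := hχ
  have hn0 : (n : AlgebraicClosure F) ≠ 0 := by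
    intro h
    have h1 := (CharP.cast_eq_zero_iff (AlgebraicClosure F) p _).mp h
    have hp : p.Prime := Fact.out
    have h2 := Nat.dvd_gcd h1 (dvd_refl p)
    rw [hnp] at h2
    exact hp.one_lt.ne' (Nat.dvd_one.mp h2)
  have : NeZero (n : AlgebraicClosure F) := ⟨hn0⟩
  have : NeZero n := ⟨hn⟩
  obtain ⟨ζ, hζ⟩ := HasEnoughRootsOfUnity.exists_primitiveRoot (AlgebraicClosure F) n
  have hpw : ∀ m : ℕ, em D Z.ι (x ^ m) = g * t ^ m * g⁻¹ := by
    intro m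
    rw [map_pow, hxt, conj_pow]
  have htn : t ^ n = 1 := by
    have h1 := hpw n
    rw [hxn, map_one] at h1
    have h2 : g * t ^ n * g⁻¹ = 1 := h1.symm
    rwa [mul_inv_eq_one, mul_eq_left] at h2
  have hinj : ∀ m : ℕ, t ^ m = 1 → x ^ m = 1 := by
    intro m hm
    have h1 := hpw m
    rw [hm, mul_one, mul_inv_cancel] at h1
    apply em_injective (D := D) Z.ι
    rw [h1, map_one]
  have hζ0 : ζ ≠ 0 := hζ.ne_zero hn
  have hζu : ∃ ζu : (AlgebraicClosure F)ˣ, (ζu : AlgebraicClosure F) = ζ := ⟨Units.mk0 ζ hζ0, rfl⟩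
  obtain ⟨ζu, hζu⟩ := hζu
  have hζu' : IsPrimitiveRoot ζu n := by
    rw [← hζu] at hζ
    exact IsPrimitiveRoot.coe_units_iff.mp hζ
  have hroot : ∀ s, (χ.1.1 s) ^ n = 1 := by
    intro s
    apply Units.ext
    rw [Units.val_pow_eq_pow_val, ← htχ, ← rval_pow G ht, htn, rval_one G, Units.val_one]
  have hm : ∀ j : Fin D.rank, ∃ m : ℕ, χ.1.1 (simpF G j) = ζu ^ m := by
    intro j
    have h1 : ((χ.1.1 (simpF G j) : (AlgebraicClosure F)ˣ) : AlgebraicClosure F) ^ n = 1 := by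
      rw [← Units.val_pow_eq_pow_val, hroot, Units.val_one]
    obtain ⟨i, _, hi⟩ := hζ.eq_pow_of_pow_eq_one h1
    refine ⟨i, Units.ext ?_⟩
    rw [Units.val_pow_eq_pow_val, hζu, hi]
  choose m hm using hm
  let M : Fin D.nroots → ℤ := fun s => ∑ j : Fin D.rank, G.rv s j * m j
  have hMsimp : ∀ j, M (simpF G j) = m j := by
    intro j
    show ∑ k : Fin D.rank, G.rv (simpF G j) k * m k = m j
    rw [Finset.sum_eq_single j]
    · rw [rv_simpF, if_pos rfl, one_mul]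
    · intro k _ hk
      rw [rv_simpF, if_neg (fun h => hk (Fin.ext h)), zero_mul]
    · intro h; exact absurd (Finset.mem_univ _) h
  have hcw : IsCw G M := by
    intro s
    exact Finset.sum_congr rfl fun j _ => by rw [hMsimp]
  have hval : ∀ s, χ.1.1 s = ζu ^ (M s) := by
    intro s
    rw [χ.1.2 s]
    show _ = ζu ^ (∑ j : Fin D.rank, G.rv s j * (m j : ℤ))
    have h1 : ∀ j : Fin D.rank, χ.1.1 (simpF G j) ^ G.rv s j = ζu ^ (G.rv s j * (m j : ℤ)) := by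
      intro j
      rw [hm j, mul_comm, zpow_mul, zpow_natCast]
    rw [Finset.prod_congr rfl fun j _ => h1 j]
    have h2 : ∀ S : Finset (Fin D.rank), ∏ j ∈ S, ζu ^ (G.rv s j * (m j : ℤ)) = ζu ^ (∑ j ∈ S, G.rv s j * (m j : ℤ)) := by
      intro S
      induction S using Finset.induction_on with
      | empty => simp
      | insert a S ha ih => rw [Finset.prod_insert ha, Finset.sum_insert ha, zpow_add, ih]
    exact h2 _
  refine ⟨w, hw, M, hcw, fun s => ?_, fun k hk => ?_⟩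
  · have h1 : χ.1.1 (w s) = χ.1.1 s ^ q := hwχ s
    rw [hval, hval, ← zpow_natCast, ← zpow_mul] at h1
    have h2 : ζu ^ (M (w s) - q * M s) = 1 := by
      rw [zpow_sub, h1, mul_comm (q : ℤ), mul_inv_cancel]
    exact (hζu'.zpow_eq_one_iff_dvd _).mp h2
  · apply hinj
    apply ext_rval G (pow_mem ht _) (one_mem _)
    intro s
    rw [rval_one G, rval_pow G ht, htχ, ← Units.val_pow_eq_pow_val, hval, ← zpow_natCast, ← zpow_mul, mul_comm,
      (hζu'.zpow_eq_one_iff_dvd _).mpr (hk s), Units.val_one]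

/-- elements of order 65 -/
theorem no_ord {D : ChevalleyDatum} (G : Good D) (hD : Listed D) (hmin : NoMin G) {d : ℕ} (cd : CertD D d)
    {F : Type*} [Field F] [Fintype F] (hq : Fintype.card F = 2) [CharP F 2] (hcop : ∀ n : ℕ, n.Coprime 2 → n.Coprime d)
    (hno : ∀ w ∈ Wg G, ∀ M : Fin D.nroots → ℤ, IsCw G M → (∀ s, (13 : ℤ) ∣ M (w s) - 2 * M s) →
      (∀ s, (5 : ℤ) ∣ M (w s) - 2 * M s) → (∃ s, ¬ (13 : ℤ) ∣ M s) → ∀ s, (5 : ℤ) ∣ M s)
    (x : ↥(D.group F)) : orderOf x ≠ 65 := by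
  intro ho
  have : Fact (Nat.Prime 2) := ⟨Nat.prime_two⟩
  obtain ⟨y, hy⟩ : ∃ y : GL D.Idx F, y = x := ⟨_, rfl⟩
  have hyo : orderOf y = 65 := by rw [hy, Subgroup.orderOf_coe, ho]
  have hyG : y ∈ D.group F := by rw [hy]; exact x.2
  have hx65 : y ^ 65 = 1 := by rw [← hyo]; exact pow_orderOf_eq_one y
  have hne : ∀ k : ℕ, 0 < k → k < 65 → y ^ k ≠ 1 := by
    intro k hk0 hk h
    have h2 := Nat.le_of_dvd hk0 (orderOf_dvd_of_pow_eq_one h)
    omega
  obtain ⟨w, hw, M, hM, hwM, hMx⟩ := exists_coweight G hD hmin cd hq 2 hcop hyG (n := 65) (by norm_num) hx65 (by norm_num)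
  have h13 : ∀ s, (13 : ℤ) ∣ M (w s) - 2 * M s := fun s => Dvd.dvd.trans (by norm_num) (hwM s)
  have h5 : ∀ s, (5 : ℤ) ∣ M (w s) - 2 * M s := fun s => Dvd.dvd.trans (by norm_num) (hwM s)
  have hM0 : ∃ s, ¬ (13 : ℤ) ∣ M s := by
    by_contra hcon
    push Not at hcon
    refine hne 5 (by norm_num) (by norm_num) (hMx 5 fun s => ?_)
    obtain ⟨c, hc⟩ := hcon s
    exact ⟨c, by rw [hc]; push_cast; ring⟩
  have h := hno w hw M hM h13 h5 hM0
  refine hne 13 (by norm_num) (by norm_num) (hMx 13 fun s => ?_)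
  obtain ⟨c, hc⟩ := h s
  exact ⟨c, by rw [hc]; push_cast; ring⟩

/-- **`E₇(2)` has no element of order 65** -/
theorem no65 (x : ↥(chevE7.group (ZMod 2))) : orderOf x ≠ 65 :=
  no_ord GE (by simp [Listed]) noMinE7 cdE7 (ZMod.card 2) (fun _ h => h)
    (fun _ hw _ hM h13 h5 h0 => no_pair hw hM hM h13 h5 h0) x

end Cfsg.Agent.Lib.E7No65
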