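import Cfsg.Agent.Lib.ChevPar
import Cfsg.Agent.Lib.ChevLong
import Cfsg.Agent.Lib.ChevSimple

set_option autoImplicit false
set_option linter.style.haveILetI false
set_option linter.unusedVariables false
set_option linter.unusedSectionVars false

/-!
Normal subgroups of a standard maximal parabolic subgroup contained in `U`: the smallest closed set of positive roots
supporting a subgroup.
-/

namespace Cfsg.Agent.Lib.EECore
open Cfsg.Lie Cfsg.Agent.Lib.ChevX Cfsg.Agent.Lib.ChevGood Cfsg.Agent.Lib.ChevRel Cfsg.Agent.Lib.ChevLev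
open Cfsg.Agent.Lib.ChevU Cfsg.Agent.Lib.ChevH Cfsg.Agent.Lib.ChevN Cfsg.Agent.Lib.ChevBN Cfsg.Agent.Lib.ChevPar
open scoped MatrixGroups Matrix

variable {D : ChevalleyDatum} {F : Type*} [Field F]

section
variable (G : Good D)
include G

/-! ### the smallest closed set -/

/-- the smallest closed set of positive roots supporting `K` -/
def Smin (K : Subgroup (GL D.Idx F)) : Set ℕ :=
  {r | ∀ S : Set ℕ, (∀ s ∈ S, D.IsPosRoot s) → IsClosed G S → K ≤ XS D F S → r ∈ S}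

theorem Smin_le {K : Subgroup (GL D.Idx F)} {S : Set ℕ} (hS : ∀ s ∈ S, D.IsPosRoot s) (hc : IsClosed G S)
    (hK : K ≤ XS D F S) : Smin G K ⊆ S := fun r hr => hr S hS hc hK

theorem Smin_pos {K : Subgroup (GL D.Idx F)} (hK : K ≤ D.posUnipotent F) : ∀ s ∈ Smin G K, D.IsPosRoot s := by
  intro s hs
  refine hs {r | D.IsPosRoot r} (fun _ h => h) (isClosed_pos G) ?_
  rw [← posUnipotent_eq G]; exact hK

theorem Smin_closed {K : Subgroup (GL D.Idx F)} : IsClosed G (Smin G K) := by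
  intro r hr s hs k hk i j hi hj h S hS hc hK
  exact hc r (hr S hS hc hK) s (hs S hS hc hK) k hk i j hi hj h

theorem le_XS_Smin {K : Subgroup (GL D.Idx F)} (hK : K ≤ D.posUnipotent F) : K ≤ XS D F (Smin G K) := by
  intro g hg
  have h0 : g ∈ XS D F {r | D.IsPosRoot r} := by rw [← posUnipotent_eq G]; exact hK hg
  obtain ⟨t, ht, hgt⟩ := exists_normalForm G (S := {r | D.IsPosRoot r}) (fun _ h => h) (isClosed_pos G) h0
  have key : ∀ r, D.IsPosRoot r → r ∉ Smin G K → t r = 0 := by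
    intro r hr hrS
    simp only [Smin, Set.mem_ofPred_eq, not_forall] at hrS
    obtain ⟨S, hS, hc, hKS, hrS⟩ := hrS
    obtain ⟨t', ht', hgt'⟩ := exists_normalForm G hS hc (hKS hg)
    rw [normalForm_unique G (hgt.symm.trans hgt') hr]
    exact ht' r hrS
  rw [hgt]
  have : ∀ L : List ℕ, (∀ r ∈ L, D.IsPosRoot r) → wg D F (L.map fun r => (r, t r)) ∈ XS D F (Smin G K) := by
    intro L
    induction L with
    | nil => intro _; rw [List.map_nil, wg_nil]; exact one_mem _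
    | cons a L ih =>
      intro hL
      rw [List.map_cons, wg_cons]
      refine mul_mem ?_ (ih fun r hr => hL r (List.mem_cons_of_mem _ hr))
      by_cases ha : a ∈ Smin G K
      · exact xg_mem_XS ha _
      · rw [key a (hL a List.mem_cons_self) ha, xg_zero G]; exact one_mem _
  exact this _ fun r hr => mem_posRoots.mp hr

/-! ### linear functions and reflections -/

theorem cartan_lin {i k r s : ℕ} (hi : i < D.rank) (hk : k < D.nroots) (hr : r < D.nroots) (hs : s < D.nroots)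
    {a b : ℤ} (h : ∀ l, G.rv k l = a * G.rv r l + b * G.rv s l) :
    D.cartan i k = a * D.cartan i r + b * D.cartan i s := by
  rw [G.ca_lin i hi k hk, G.ca_lin i hi r hr, G.ca_lin i hi s hs, Finset.mul_sum, Finset.mul_sum,
    ← Finset.sum_add_distrib]
  refine Finset.sum_congr rfl fun j _ => ?_
  rw [h j]; ring

theorem rv_refl_lin {i k r s : ℕ} (hi : i < D.rank) (hk : k < D.nroots) (hr : r < D.nroots) (hs : s < D.nroots)
    {a b : ℤ} (h : ∀ l, G.rv k l = a * G.rv r l + b * G.rv s l) (l : ℕ) :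
    G.rv (D.reflectRoot i k) l = a * G.rv (D.reflectRoot i r) l + b * G.rv (D.reflectRoot i s) l := by
  rw [G.rv_w i hi k hk, G.rv_w i hi r hr, G.rv_w i hi s hs, h l]
  split_ifs with hl
  · rw [cartan_lin G hi hk hr hs h]; ring
  · ring

theorem closed_refl {S : Set ℕ} {i : ℕ} (hi : i < D.rank) (hS : ∀ r ∈ S, r < D.nroots) (hc : IsClosed G S) :
    IsClosed G (D.reflectRoot i '' S) := by
  rintro _ ⟨r, hr, rfl⟩ _ ⟨s, hs, rfl⟩ k hk a b ha hb h
  refine ⟨D.reflectRoot i k, hc r hr s hs _ (G.w_lt i hi k hk) a b ha hb fun l => ?_, G.w_w i hi k hk⟩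
  have h1 := rv_refl_lin G hi hk (G.w_lt i hi r (hS r hr)) (G.w_lt i hi s (hS s hs)) (a := (a : ℤ)) (b := (b : ℤ)) h l
  rw [G.w_w i hi r (hS r hr), G.w_w i hi s (hS s hs)] at h1
  exact h1

/-- conjugation of `XS S` by `n_i` -/
theorem conj_XS {S : Set ℕ} {i : ℕ} (hi : i < D.rank) (hS : ∀ r ∈ S, r < D.nroots) {x : GL D.Idx F}
    (hx : x ∈ XS D F S) : ng D F (D.simple i) 1 * x * (ng D F (D.simple i) 1)⁻¹ ∈ XS D F (D.reflectRoot i '' S) := by
  refine conj_XS_mem (fun s hs u => ?_) hx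
  rw [ng_simple_one_conj G hi (hS s hs)]
  exact xg_mem_XS (Set.mem_image_of_mem _ hs) _

theorem conj_XS' {S : Set ℕ} {i : ℕ} (hi : i < D.rank) (hS : ∀ r ∈ S, r < D.nroots) {x : GL D.Idx F}
    (hx : x ∈ XS D F S) : (ng D F (D.simple i) 1)⁻¹ * x * ng D F (D.simple i) 1 ∈ XS D F (D.reflectRoot i '' S) := by
  have h1 : (ng D F (D.simple i) 1)⁻¹ * x * ((ng D F (D.simple i) 1)⁻¹)⁻¹ ∈ XS D F (D.reflectRoot i '' S) := by
    refine conj_XS_mem (fun s hs u => ?_) hx
    rw [inv_inv, ng_inv_conj G hi (hS s hs)]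
    exact xg_mem_XS (Set.mem_image_of_mem _ hs) _
  rwa [inv_inv] at h1

/-! ### weights -/

theorem xg_not_mem_LG {f : ℕ → ℤ} (hf : Additive' G f) {r : ℕ} (hr : r < D.nroots) (hneg : f r < 0) {t : F}
    (h : xg D F r t ∈ LG F (wtf (D := D) f) 0) : t = 0 := by
  by_contra ht
  obtain ⟨k, hk, hk'⟩ := G.co_ne_zero (F := F) hr
  have h1 := (mem_LG.mp h).1 (Sum.inl ⟨k, hk⟩) (Sum.inr ⟨D.neg r, neg_lt G hr⟩) (by
    rw [coe_xg G, x_sub_one_neg G hr]
    exact mul_ne_zero hk' ht)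
  have h2 : wtf (D := D) f (Sum.inr ⟨D.neg r, neg_lt G hr⟩) = - f r := hf.neg r hr
  have h3 : wtf (D := D) f (Sum.inl ⟨k, hk⟩) = 0 := rfl
  rw [h2, h3] at h1
  push_cast at h1
  omega

theorem P_le_LG (J : Set ℕ) : D.parabolicSubgroup F J ≤ LG F (wtf (D := D) (fJ G J)) 0 := by
  rw [parabolic_eq G]
  refine sup_le (H_le_LG G _) (XS_le fun r hr t => ?_)
  rcases hr with hr | hr
  · exact xg_mem_LGf G (fJ_add G J) hr.1 (by simpa using fJ_nonneg G hr) t
  · exact xg_mem_LGf G (fJ_add G J) hr.1 (by rw [fJ_zero G hr.1 hr]; simp) t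

/-- a root element of the parabolic subgroup has nonnegative level -/
theorem eq_zero_of_mem_P {J : Set ℕ} {r : ℕ} (hr : r < D.nroots) (hneg : fJ G J r < 0) {t : F}
    (h : xg D F r t ∈ D.parabolicSubgroup F J) : t = 0 :=
  xg_not_mem_LG G (fJ_add G J) hr hneg (P_le_LG G J h)


theorem fJ_neg_simple {J : Set ℕ} {i : ℕ} (hi : i < D.rank) (hiJ : i ∉ J) : fJ G J (D.neg (D.simple i)) < 0 := by
  rw [(fJ_add G J).neg _ (G.simple_lt i hi)]
  have := fJ_pos G (J := J) (simple_isPos G hi) (simple_mem_Psi G hi hiJ).2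
  omega

/-- an element `u` of `U` with `n_i⁻¹ u n_i ∈ P_J`, `i ∉ J` -/
theorem mem_posBut {J : Set ℕ} {i : ℕ} (hi : i < D.rank) (hiJ : i ∉ J) {x : GL D.Idx F} (hx : x ∈ D.posUnipotent F)
    (h : (ng D F (D.simple i) 1)⁻¹ * x * ng D F (D.simple i) 1 ∈ D.parabolicSubgroup F J) :
    x ∈ XS D F (posBut D i) := by
  rw [← posBut_sup G hi] at hx
  have h1 := Subgroup.coe_mul_of_right_le_normalizer_left (XS D F (posBut D i)) (D.rootSubgroup F (D.simple i))
    (by rw [rootSubgroup_eq G]; exact X_le_normalizer_posBut G hi)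
  rw [← SetLike.mem_coe, h1, Set.mem_mul] at hx
  obtain ⟨v, hv, y, hy, rfl⟩ := hx
  obtain ⟨t, rfl⟩ := (mem_rootSubgroup_iff G).mp hy
  have hn := ng_mem_normalizer_posBut (F := F) G hi
  have h2 : (ng D F (D.simple i) 1)⁻¹ * v * ng D F (D.simple i) 1 ∈ D.parabolicSubgroup F J := by
    refine B_le_P G J (posBut_le_B G (i := i) ?_)
    have := (Subgroup.mem_normalizer_iff.mp (inv_mem hn) v).mp hv
    rwa [inv_inv] at this
  have h3 : (ng D F (D.simple i) 1)⁻¹ * xg D F (D.simple i) t * ng D F (D.simple i) 1 ∈ D.parabolicSubgroup F J := by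
    have h4 : (ng D F (D.simple i) 1)⁻¹ * xg D F (D.simple i) t * ng D F (D.simple i) 1 =
        ((ng D F (D.simple i) 1)⁻¹ * v * ng D F (D.simple i) 1)⁻¹ *
          ((ng D F (D.simple i) 1)⁻¹ * (v * xg D F (D.simple i) t) * ng D F (D.simple i) 1) := by group
    rw [h4]
    exact mul_mem (inv_mem h2) h
  rw [ng_inv_conj G hi (G.simple_lt i hi), reflect_simple hi] at h3
  have h5 := eq_zero_of_mem_P G (neg_lt G (G.simple_lt i hi)) (fJ_neg_simple G hi hiJ) h3
  have h6 : t = 0 := by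
    rcases mul_eq_zero.mp h5 with h6 | h6
    · exfalso
      rcases G.η_sq i hi _ (neg_lt G (G.simple_lt i hi)) with h7 | h7 <;> rw [h7] at h6 <;> simp at h6
    · exact h6
  rw [h6, xg_zero G, mul_one]
  exact hv

theorem isClosed_posBut {i : ℕ} (hi : i < D.rank) : IsClosed G (posBut D i) := by
  intro r hr s hs k hk a b ha hb h
  refine ⟨isClosed_pos G r hr.1 s hs.1 k hk a b ha hb h, ?_⟩
  rintro rfl
  have hr0 : ∀ l, 0 ≤ G.rv r l := G.rv_nonneg r hr.1.1 ((G.isPos_iff r).mp hr.1).1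
  have hs0 : ∀ l, 0 ≤ G.rv s l := G.rv_nonneg s hs.1.1 ((G.isPos_iff s).mp hs.1).1
  have ha' : (1 : ℤ) ≤ a := by exact_mod_cast ha
  have hb' : (1 : ℤ) ≤ b := by exact_mod_cast hb
  -- `r` is supported at `i`
  have h1 : ∀ l, l ≠ i → G.rv r l = 0 := by
    intro l hl
    have h2 := h l
    rw [G.rv_simple i hi, if_neg hl] at h2
    nlinarith [hr0 l, hs0 l, mul_nonneg (sub_nonneg.mpr ha') (hr0 l), mul_nonneg (sub_nonneg.mpr hb') (hs0 l)]
  have h2 : ∀ l, l ≠ i → G.rv s l = 0 := by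
    intro l hl
    have h2 := h l
    rw [G.rv_simple i hi, if_neg hl] at h2
    nlinarith [hr0 l, hs0 l, mul_nonneg (sub_nonneg.mpr ha') (hr0 l), mul_nonneg (sub_nonneg.mpr hb') (hs0 l)]
  have h3 := h i
  rw [G.rv_simple i hi, if_pos rfl] at h3
  have hri : G.rv r i ≠ 0 := by
    intro h4
    obtain ⟨l, hl, hl'⟩ := G.rv_ne_zero r hr.1.1
    by_cases hli : l = i
    · subst hli; exact hl' h4
    · exact hl' (h1 l hli)
  have hsi : G.rv s i ≠ 0 := by
    intro h4
    obtain ⟨l, hl, hl'⟩ := G.rv_ne_zero s hs.1.1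
    by_cases hli : l = i
    · subst hli; exact hl' h4
    · exact hl' (h2 l hli)
  have h4 : 1 ≤ G.rv r i := by have := hr0 i; omega
  have h5 : 1 ≤ G.rv s i := by have := hs0 i; omega
  nlinarith [mul_le_mul ha' h4 (by norm_num) (by linarith), mul_le_mul hb' h5 (by norm_num) (by linarith)]

/-- the smallest closed set is invariant under the reflections normalizing `K` -/
theorem Smin_refl {K : Subgroup (GL D.Idx F)} (hK : K ≤ D.posUnipotent F) {i : ℕ} (hi : i < D.rank)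
    (h1 : ∀ x ∈ K, ng D F (D.simple i) 1 * x * (ng D F (D.simple i) 1)⁻¹ ∈ K)
    (h2 : ∀ x ∈ K, (ng D F (D.simple i) 1)⁻¹ * x * ng D F (D.simple i) 1 ∈ K) :
    ∀ r ∈ Smin G K, r ∈ posBut D i ∧ D.reflectRoot i r ∈ Smin G K := by
  have h3 : Smin G K ⊆ posBut D i := by
    refine Smin_le G (fun s hs => hs.1) (isClosed_posBut G hi) fun x hx => ?_
    exact mem_posBut G (J := ∅) hi (by simp) (hK hx) (B_le_P G _ (U_le_B (hK (h2 x hx))))
  have hpos := Smin_pos G hK
  have h4 : Smin G K ⊆ D.reflectRoot i '' (Smin G K) := by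
    refine Smin_le G ?_ (closed_refl G hi (fun r hr => (hpos r hr).1) (Smin_closed G)) fun x hx => ?_
    · rintro _ ⟨r, hr, rfl⟩
      exact (reflect_posBut G hi (h3 hr)).1
    · have h5 := conj_XS (F := F) G hi (fun r hr => (hpos r hr).1) (le_XS_Smin G hK (h2 x hx))
      have h6 : ng D F (D.simple i) 1 * ((ng D F (D.simple i) 1)⁻¹ * x * ng D F (D.simple i) 1) *
          (ng D F (D.simple i) 1)⁻¹ = x := by group
      rwa [h6] at h5
  intro r hr
  refine ⟨h3 hr, ?_⟩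
  obtain ⟨s, hs, rfl⟩ := h4 hr
  rw [G.w_w i hi s (hpos s hs).1]
  exact hs

/-- height -/
noncomputable def hgt (r : ℕ) : ℤ := ∑ j ∈ Finset.range D.rank, G.rv r j

theorem hgt_refl {i s : ℕ} (hi : i < D.rank) (hs : s < D.nroots) :
    hgt G (D.reflectRoot i s) = hgt G s - D.cartan i s := by
  unfold hgt
  have : ∀ j ∈ Finset.range D.rank, G.rv (D.reflectRoot i s) j = G.rv s j - (if j = i then D.cartan i s else 0) :=
    fun j _ => G.rv_w i hi s hs j
  rw [Finset.sum_congr rfl this, Finset.sum_sub_distrib, Finset.sum_ite_eq', if_pos (Finset.mem_range.mpr hi)]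

theorem hgt_nonneg {s : ℕ} (hs : D.IsPosRoot s) : 0 ≤ hgt G s :=
  Finset.sum_nonneg fun j _ => G.rv_nonneg s hs.1 ((G.isPos_iff s).mp hs).1 j

/-- the roots of `j`-level at least `m` -/
def Lv (j : ℕ) (m : ℤ) : Set ℕ := {r | r < D.nroots ∧ m ≤ G.rv r j}

theorem Lv_closed {j : ℕ} {m : ℤ} (hm : 0 ≤ m) : IsClosed G (Lv G j m) := by
  intro r hr s hs k hk a b ha hb h
  refine ⟨hk, ?_⟩
  rw [h j]
  have ha' : (1 : ℤ) ≤ a := by exact_mod_cast ha
  have hb' : (1 : ℤ) ≤ b := by exact_mod_cast hb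
  have h1 := hr.2
  have h2 := hs.2
  nlinarith [mul_le_mul ha' h1 hm (by linarith), mul_nonneg (by linarith : (0 : ℤ) ≤ b) (by linarith : (0 : ℤ) ≤ G.rv s j)]

theorem Lv_pos {j : ℕ} {m : ℤ} (hm : 1 ≤ m) : ∀ r ∈ Lv G j m, D.IsPosRoot r := by
  intro r hr
  rcases pos_or_neg G hr.1 with h | h
  · exact h
  · exfalso
    have h1 := (isPos_neg_iff G hr.1).mpr h
    have h2 := G.rv_nonneg _ h1.1 ((G.isPos_iff _).mp h1).1 j
    rw [G.rv_neg r hr.1] at h2
    have := hr.2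
    omega

/-- the table condition at the node `j` -/
def Tab (j : ℕ) : Prop := ∀ r, D.IsPosRoot r → r ≠ D.simple j →
  (∃ i < D.rank, i ≠ j ∧ 0 < D.cartan i r) ∨ (2 ≤ G.rv r j ∧ 0 < D.cartan j r)

/-- raising the level -/
theorem core_step {j : ℕ} (hj : j < D.rank) (hT : Tab G j) {K : Subgroup (GL D.Idx F)} (hK : K ≤ D.posUnipotent F)
    (h1 : ∀ i < D.rank, i ≠ j → ∀ x ∈ K, ng D F (D.simple i) 1 * x * (ng D F (D.simple i) 1)⁻¹ ∈ K)
    (h2 : ∀ i < D.rank, i ≠ j → ∀ x ∈ K, (ng D F (D.simple i) 1)⁻¹ * x * ng D F (D.simple i) 1 ∈ K)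
    (h3 : ∀ x ∈ K, (ng D F (D.simple j) 1)⁻¹ * x * ng D F (D.simple j) 1 ∈ D.parabolicSubgroup F {i | i ≠ j})
    {m : ℤ} (hm : ∀ r ∈ Smin G K, m ≤ G.rv r j)
    (h4 : 2 ≤ m → ∀ x ∈ K, (ng D F (D.simple j) 1)⁻¹ * x * ng D F (D.simple j) 1 ∈ XS D F (Lv G j m)) :
    ∀ r ∈ Smin G K, m + 1 ≤ G.rv r j := by
  have hpos := Smin_pos G hK
  have hjS : ∀ r ∈ Smin G K, r ∈ posBut D j := by
    refine Smin_le G (fun s hs => hs.1) (isClosed_posBut G hj) fun x hx => ?_
    exact mem_posBut G (J := {i | i ≠ j}) hj (by simp) (hK hx) (h3 x hx)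
  have hrefl : 2 ≤ m → ∀ r ∈ Smin G K, m ≤ G.rv (D.reflectRoot j r) j := by
    intro hm2
    have h5 : Smin G K ⊆ D.reflectRoot j '' (Lv G j m ∩ posBut D j) := by
      have hsub : Lv G j m ∩ posBut D j = Lv G j m := by
        refine Set.inter_eq_left.mpr fun r hr => ⟨Lv_pos G (by omega) r hr, ?_⟩
        rintro rfl
        have := hr.2
        rw [G.rv_simple j hj, if_pos rfl] at this
        omega
      rw [hsub]
      refine Smin_le G ?_ (closed_refl G hj (fun r hr => hr.1) (Lv_closed G (by omega))) fun x hx => ?_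
      · rintro _ ⟨r, hr, rfl⟩
        rw [← hsub] at hr
        exact (reflect_posBut G hj hr.2).1
      · have h5 := conj_XS (F := F) G hj (fun r hr => hr.1) (h4 hm2 x hx)
        have h6 : ng D F (D.simple j) 1 * ((ng D F (D.simple j) 1)⁻¹ * x * ng D F (D.simple j) 1) *
            (ng D F (D.simple j) 1)⁻¹ = x := by group
        rwa [h6] at h5
    intro r hr
    obtain ⟨s, hs, rfl⟩ := h5 hr
    rw [G.w_w j hj s hs.1.1]
    exact hs.1.2
  have key : ∀ n : ℕ, ∀ r ∈ Smin G K, (hgt G r).toNat = n → m + 1 ≤ G.rv r j := by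
    intro n
    induction n using Nat.strong_induction_on with
    | _ n ih =>
      intro r hr hn
      by_contra hcon
      have hlev : G.rv r j = m := le_antisymm (by omega) (hm r hr)
      have hrp := hpos r hr
      rcases hT r hrp (hjS r hr).2 with ⟨i, hi, hij, hc⟩ | ⟨h5, hc⟩
      · have h6 := (Smin_refl G hK hi (h1 i hi hij) (h2 i hi hij) r hr).2
        have h7 := hgt_refl G hi hrp.1
        have h8 := hgt_nonneg G (hpos _ h6)
        have h9 := ih (hgt G (D.reflectRoot i r)).toNat (by omega) _ h6 rfl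
        rw [G.rv_w i hi r hrp.1, if_neg (Ne.symm hij)] at h9
        omega
      · have h6 := hrefl (by omega) r hr
        rw [G.rv_w j hj r hrp.1, if_pos rfl] at h6
        omega
  exact fun r hr => key _ r hr rfl

end

end Cfsg.Agent.Lib.EECore
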