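import Cfsg.Agent.Lib.EECore1

set_option autoImplicit false
set_option linter.style.haveILetI false
set_option linter.unusedVariables false
set_option linter.unusedSectionVars false

/-!
A normal subgroup of a maximal parabolic subgroup contained in a neighbouring conjugate lies in the Borel subgroup.
-/

namespace Cfsg.Agent.Lib.EECore
open Cfsg.Lie Cfsg.Agent.Lib.ChevX Cfsg.Agent.Lib.ChevGood Cfsg.Agent.Lib.ChevRel Cfsg.Agent.Lib.ChevLev
open Cfsg.Agent.Lib.ChevU Cfsg.Agent.Lib.ChevH Cfsg.Agent.Lib.ChevN Cfsg.Agent.Lib.ChevBN Cfsg.Agent.Lib.ChevPar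
open scoped MatrixGroups Matrix

variable {D : ChevalleyDatum} {F : Type*} [Field F]

section
variable (G : Good D)
include G

/-- the set of distinguished generators with index in `J` -/
def TJ (D : ChevalleyDatum) (F : Type*) [Field F] (J : Set ℕ) : Set ↥(D.group F) :=
  {n | ∃ i ∈ J, i < D.rank ∧ (n : GL D.Idx F) = ng D F (D.simple i) 1}

theorem P_le_group (J : Set ℕ) : D.parabolicSubgroup F J ≤ D.group F := by
  rw [parabolicSubgroup_eq G]
  refine sup_le (B_le_group G) ?_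
  rw [Subgroup.closure_le]
  rintro g ⟨i, hi, hi', rfl⟩
  exact ng_mem_group G (G.simple_lt i hi') 1

theorem parabolic_TJ (J : Set ℕ) : (bnPair G F).parabolic (TJ D F J) = (D.parabolicSubgroup F J).subgroupOf (D.group F) := by
  apply Subgroup.map_injective (Subgroup.subtype_injective (D.group F))
  rw [Subgroup.subgroupOf_map_subtype, inf_eq_left.mpr (P_le_group G J), parabolicSubgroup_eq G]
  unfold BNPair.parabolic
  rw [Subgroup.map_sup, MonoidHom.map_closure]
  congr 1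
  · show ((D.borelSubgroup F).subgroupOf (D.group F)).map _ = _
    rw [Subgroup.subgroupOf_map_subtype, inf_eq_left.mpr (B_le_group G)]
  · congr 1
    ext g
    constructor
    · rintro ⟨n, ⟨i, hi, hi', h⟩, rfl⟩
      exact ⟨i, hi, hi', h⟩
    · rintro ⟨i, hi, hi', rfl⟩
      exact ⟨⟨ng D F (D.simple i) 1, ng_mem_group G (G.simple_lt i hi') 1⟩, ⟨i, hi, hi', rfl⟩, rfl⟩

/-- overgroups of the Borel subgroup -/
theorem overgroup {X : Subgroup ↥(D.group F)} (hX : (D.borelSubgroup F).subgroupOf (D.group F) ≤ X) :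
    X = (D.parabolicSubgroup F {i | ∃ h : i < D.rank,
      (⟨ng D F (D.simple i) 1, ng_mem_group G (G.simple_lt i h) 1⟩ : ↥(D.group F)) ∈ X}).subgroupOf (D.group F) := by
  rw [← parabolic_TJ G]
  have h1 := Cfsg.Agent.Lib.BNPair.eq_parabolic (P := bnPair G F) (M := X) hX
  conv_lhs => rw [h1]
  congr 1
  ext n
  constructor
  · rintro ⟨⟨i, hi, h⟩, hn⟩
    refine ⟨i, ⟨hi, ?_⟩, hi, h⟩
    have h2 : n = ⟨ng D F (D.simple i) 1, ng_mem_group G (G.simple_lt i hi) 1⟩ := Subtype.ext h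
    rw [← h2]; exact hn
  · rintro ⟨i, ⟨hi, hi'⟩, hi2, h⟩
    refine ⟨⟨i, hi, h⟩, ?_⟩
    have h2 : n = ⟨ng D F (D.simple i) 1, ng_mem_group G (G.simple_lt i hi) 1⟩ := Subtype.ext h
    rw [h2]; exact hi'

theorem simple_mem_U {i : ℕ} (hi : i < D.rank) (t : F) : xg D F (D.simple i) t ∈ D.posUnipotent F := by
  rw [posUnipotent_eq G]
  exact xg_mem_XS (simple_isPos G hi) t

theorem ng_not_mem_P {J : Set ℕ} {i : ℕ} (hi : i < D.rank) (hiJ : i ∉ J) :
    ng D F (D.simple i) 1 ∉ D.parabolicSubgroup F J := by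
  intro h
  have h1 : ng D F (D.simple i) 1 * xg D F (D.simple i) 1 * (ng D F (D.simple i) 1)⁻¹ ∈ D.parabolicSubgroup F J :=
    mul_mem (mul_mem h (B_le_P G J (U_le_B (simple_mem_U G hi 1)))) (inv_mem h)
  rw [ng_simple_one_conj G hi (G.simple_lt i hi), ChevN.reflect_simple hi] at h1
  have h5 := eq_zero_of_mem_P G (neg_lt G (G.simple_lt i hi)) (fJ_neg_simple G hi hiJ) h1
  rcases G.η_sq i hi _ (G.simple_lt i hi) with h7 | h7 <;> rw [h7] at h5 <;> simp at h5

/-- the boundary argument -/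
theorem boundary {J : Set ℕ} {i i' : ℕ} (hi : i < D.rank) (hi' : i' < D.rank) (hiJ : i ∈ J) (hiJ' : i' ∉ J)
    (hc : D.cartan i' (D.simple i) ≠ 0) {b : GL D.Idx F} (hb : b ∈ D.borelSubgroup F)
    (h : (ng D F (D.simple i') 1)⁻¹ * (ng D F (D.simple i) 1 * b⁻¹) * ng D F (D.simple i') 1 ∈ D.parabolicSubgroup F J) :
    False := by
  have hne : i ≠ i' := by rintro rfl; exact hiJ' hiJ
  set s := ng D F (D.simple i') 1 with hs
  set n := ng D F (D.simple i) 1 with hn
  have hnP : n ∈ D.parabolicSubgroup F J := ng_mem_P G hiJ hi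
  have hBP := B_le_P (F := F) G J
  have hsN : s ∈ D.monomialSubgroup F := ng_mem_N G (G.simple_lt i' hi')
  have hnN : n ∈ D.monomialSubgroup F := ng_mem_N G (G.simple_lt i hi)
  have h1 : s * ((s * s)⁻¹ * b) * (n⁻¹ * s) ∈ D.parabolicSubgroup F J := by
    have h2 : s * ((s * s)⁻¹ * b) * (n⁻¹ * s) = (s⁻¹ * (n * b⁻¹) * s)⁻¹ := by group
    rw [h2]; exact inv_mem h
  have h2 : (s * s)⁻¹ * b ∈ D.borelSubgroup F :=
    mul_mem (inv_mem (H_le_B (ng_sq_mem G (G.simple_lt i' hi')))) hb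
  rcases ng_B_n G hi' (mul_mem (inv_mem hnN) hsN) h2 with h3 | h3
  · obtain ⟨c, hc1, c', hc2, h4⟩ := mem_BaB.mp h3
    rw [h4] at h1
    have h5 : s * (n⁻¹ * s) ∈ D.parabolicSubgroup F J := by
      have := mul_mem (mul_mem (inv_mem (hBP hc1)) h1) (inv_mem (hBP hc2))
      have h6 : c⁻¹ * (c * (s * (n⁻¹ * s)) * c') * c'⁻¹ = s * (n⁻¹ * s) := by group
      rwa [h6] at this
    -- act on the root `s_{i'} p_i`
    set r := D.reflectRoot i' (D.simple i) with hr
    have hrl : r < D.nroots := G.w_lt i' hi' _ (G.simple_lt i hi)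
    have hrpos : D.IsPosRoot r := by
      have h6 : D.simple i ∈ posBut D i' :=
        ⟨simple_isPos G hi, fun h => hne (simple_inj G hi hi' h)⟩
      exact (reflect_posBut G hi' h6).1
    have h6 : s * (n⁻¹ * s) * xg D F r 1 * (s * (n⁻¹ * s))⁻¹ ∈ D.parabolicSubgroup F J := by
      refine mul_mem (mul_mem h5 (hBP (U_le_B ?_))) (inv_mem h5)
      rw [posUnipotent_eq G]
      exact xg_mem_XS hrpos 1
    have h7 : s * (n⁻¹ * s) * xg D F r 1 * (s * (n⁻¹ * s))⁻¹ =
        s * (n⁻¹ * (s * xg D F r 1 * s⁻¹) * n) * s⁻¹ := by group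
    rw [h7, hs, ng_simple_one_conj G hi' hrl, hr, G.w_w i' hi' _ (G.simple_lt i hi), hn,
      ng_inv_conj G hi (G.simple_lt i hi), ChevN.reflect_simple hi,
      ng_simple_one_conj G hi' (neg_lt G (G.simple_lt i hi)), G.w_neg i' hi' _ (G.simple_lt i hi)] at h6
    have h8 : fJ G J (D.neg (D.reflectRoot i' (D.simple i))) < 0 := by
      rw [(fJ_add G J).neg _ hrl]
      have h9 : ¬ D.InRootSub J (D.reflectRoot i' (D.simple i)) := by
        rw [inRootSub_iff G hrl]
        intro h9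
        have h10 := h9 i' hi' hiJ'
        rw [hr, G.rv_w i' hi' _ (G.simple_lt i hi), if_pos rfl, G.rv_simple i hi, if_neg (Ne.symm hne)] at h10
        omega
      have := fJ_pos G (J := J) hrpos h9
      omega
    have h9 := eq_zero_of_mem_P G (neg_lt G hrl) h8 h6
    have hu : ∀ (k s : ℕ), k < D.rank → s < D.nroots → ((G.η k s : ℤ) : F) ≠ 0 := by
      intro k s hk hs h0
      rcases G.η_sq k hk s hs with h7 | h7 <;> rw [h7] at h0 <;> simp at h0
    rcases mul_eq_zero.mp h9 with h10 | h10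
    · exact hu _ _ hi' (neg_lt G (G.simple_lt i hi)) h10
    rcases mul_eq_zero.mp h10 with h10 | h10
    · exact hu _ _ hi (neg_lt G (G.simple_lt i hi)) h10
    rcases mul_eq_zero.mp h10 with h10 | h10
    · exact hu _ _ hi' hrl h10
    · exact one_ne_zero h10
  · obtain ⟨c, hc1, c', hc2, h4⟩ := mem_BaB.mp h3
    rw [h4] at h1
    have h5 : n⁻¹ * s ∈ D.parabolicSubgroup F J := by
      have := mul_mem (mul_mem (inv_mem (hBP hc1)) h1) (inv_mem (hBP hc2))
      have h6 : c⁻¹ * (c * (n⁻¹ * s) * c') * c'⁻¹ = n⁻¹ * s := by group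
      rwa [h6] at this
    have h6 := mul_mem hnP h5
    rw [mul_inv_cancel_left] at h6
    exact ng_not_mem_P G hi' hiJ' h6

/-- overgroups of `B` in `GL` form -/
theorem overgroup' {X : Subgroup (GL D.Idx F)} (hX : D.borelSubgroup F ≤ X) (hXG : X ≤ D.group F) :
    X = D.parabolicSubgroup F {i | i < D.rank ∧ ng D F (D.simple i) 1 ∈ X} := by
  have h1 := overgroup G (X := X.subgroupOf (D.group F)) (fun x hx => hX hx)
  have h2 := congrArg (Subgroup.map (D.group F).subtype) h1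
  rw [Subgroup.subgroupOf_map_subtype, inf_eq_left.mpr hXG, Subgroup.subgroupOf_map_subtype,
    inf_eq_left.mpr (P_le_group G _)] at h2
  conv_lhs => rw [h2]
  congr 1
  ext i
  constructor
  · rintro ⟨hi, h⟩; exact ⟨hi, h⟩
  · rintro ⟨hi, h⟩; exact ⟨hi, h⟩

/-- a normal subgroup of the maximal parabolic subgroup contained in the neighbouring conjugate lies in `B` -/
theorem le_borel {j : ℕ} (hj : j < D.rank) (hC : ChevSimple.Conn D)
    (hsym : ∀ i < D.rank, ∀ k < D.rank, D.cartan i (D.simple k) ≠ 0 → D.cartan k (D.simple i) ≠ 0)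
    {K : Subgroup (GL D.Idx F)} (hK : K ≤ D.parabolicSubgroup F {i | i ≠ j})
    (h1 : ∀ g ∈ D.parabolicSubgroup F {i | i ≠ j}, ∀ x ∈ K, g * x * g⁻¹ ∈ K)
    (h2 : ∀ x ∈ K, (ng D F (D.simple j) 1)⁻¹ * x * ng D F (D.simple j) 1 ∈ D.parabolicSubgroup F {i | i ≠ j}) :
    K ≤ D.borelSubgroup F := by
  set J : Set ℕ := {i | i ≠ j} with hJ
  have hBP := B_le_P (F := F) G J
  have hBn : D.borelSubgroup F ≤ Subgroup.normalizer (K : Set (GL D.Idx F)) := by
    intro b hb
    rw [Subgroup.mem_normalizer_iff]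
    intro x
    constructor
    · exact fun hx => h1 b (hBP hb) x hx
    · intro hx
      have := h1 b⁻¹ (inv_mem (hBP hb)) _ hx
      have h3 : b⁻¹ * (b * x * b⁻¹) * b⁻¹⁻¹ = x := by group
      rwa [h3] at this
  have hXP : K ⊔ D.borelSubgroup F ≤ D.parabolicSubgroup F J := sup_le hK hBP
  have hover := overgroup' G (X := K ⊔ D.borelSubgroup F) le_sup_right (hXP.trans (P_le_group G _))
  set I : Set ℕ := {i | i < D.rank ∧ ng D F (D.simple i) 1 ∈ K ⊔ D.borelSubgroup F} with hI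
  have hjI : j ∉ I := fun h => ng_not_mem_P G hj (by simp [hJ]) (hXP h.2)
  have hIe : I = ∅ := by
    by_contra hne
    obtain ⟨i, hi, i', hi', hiI', hc⟩ := hC I (fun i hi => hi.1) (Set.nonempty_iff_ne_empty.mpr hne) ⟨j, hj, hjI⟩
    have hc' := hsym _ hi.1 _ hi' hc
    have h3 := Subgroup.coe_mul_of_right_le_normalizer_left K (D.borelSubgroup F) hBn
    have h4 := hi.2
    rw [← SetLike.mem_coe, h3, Set.mem_mul] at h4
    obtain ⟨k, hk, b, hb, hkb⟩ := h4
    have hk' : k = ng D F (D.simple i) 1 * b⁻¹ := by rw [← hkb]; group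
    by_cases hij : i' = j
    · subst hij
      have h5 := h2 k hk
      rw [hk'] at h5
      exact boundary G hi.1 hi' (J := J) (by rintro rfl; exact hjI hi) (by simp [hJ]) hc' hb h5
    · have h5 : (ng D F (D.simple i') 1)⁻¹ * k * ng D F (D.simple i') 1 ∈ D.parabolicSubgroup F I := by
        rw [← hover]
        refine Subgroup.mem_sup_left ?_
        have := h1 _ (inv_mem (ng_mem_P G (J := J) hij hi')) k hk
        rwa [inv_inv] at this
      rw [hk'] at h5
      exact boundary G hi.1 hi' (J := I) hi hiI' hc' hb h5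
  have h3 : D.parabolicSubgroup F I = D.borelSubgroup F := by
    rw [parabolicSubgroup_eq G, hIe]
    have : {g : GL D.Idx F | ∃ j ∈ (∅ : Set ℕ), j < D.rank ∧ g = ng D F (D.simple j) 1} = ∅ := by
      ext g; simp
    rw [this, Subgroup.closure_empty, sup_bot_eq]
  rw [h3] at hover
  rw [← hover]
  exact le_sup_left

/-- the level subgroups are normal in the maximal parabolic subgroup -/
theorem P_le_normalizer_Lv {j : ℕ} {m : ℤ} (hm : 1 ≤ m) :
    D.parabolicSubgroup F {i | i ≠ j} ≤ Subgroup.normalizer (XS D F (Lv G j m) : Set (GL D.Idx F)) := by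
  rw [parabolicSubgroup_eq G]
  refine sup_le (sup_le ?_ (diagonalSubgroup_le_normalizer G (fun r hr => hr.1))) ?_
  · rw [posUnipotent_eq G]
    refine XS_le_normalizer G (fun r hr => hr.1) (fun r hr => hr.1) ?_
    intro r hr s hs
    refine ⟨?_, fun _ k hk a b ha hb hrv => ⟨hk, ?_⟩⟩
    · rintro rfl
      exact not_pos_and_neg G (Lv_pos G hm _ hs) ((isNeg_neg_iff G hr.1).mpr hr)
    · rw [hrv j]
      have h1 := G.rv_nonneg r hr.1 ((G.isPos_iff r).mp hr).1 j
      have h2 := hs.2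
      have h3 : (1 : ℤ) ≤ b := by exact_mod_cast hb
      have h4 : (0 : ℤ) ≤ a := by positivity
      nlinarith [mul_nonneg h4 h1, mul_nonneg (sub_nonneg.mpr h3) (by linarith : (0 : ℤ) ≤ G.rv s j)]
  · rw [Subgroup.closure_le]
    rintro g ⟨i, hi, hi', rfl⟩
    have hi2 : i ≠ j := hi
    refine mem_normalizer_XS (fun s hs u => ?_) (fun s hs u => ?_)
    · rw [ng_simple_one_conj G hi' hs.1]
      refine xg_mem_XS (show D.reflectRoot i s ∈ Lv G j m from ⟨G.w_lt i hi' s hs.1, ?_⟩) _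
      rw [G.rv_w i hi' s hs.1, if_neg (Ne.symm hi2)]
      have := hs.2
      omega
    · rw [ng_inv_conj G hi' hs.1]
      refine xg_mem_XS (show D.reflectRoot i s ∈ Lv G j m from ⟨G.w_lt i hi' s hs.1, ?_⟩) _
      rw [G.rv_w i hi' s hs.1, if_neg (Ne.symm hi2)]
      have := hs.2
      omega

end

end Cfsg.Agent.Lib.EECore
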