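import Cfsg.Agent.Lib.EECore2
import Cfsg.Agent.Lib.ChevOkE8

set_option autoImplicit false
set_option linter.style.haveILetI false
set_option linter.unusedVariables false
set_option linter.unusedSectionVars false

/-!
Iterated cores: the abstract recursion, and the tables for `E_8`.
-/

namespace Cfsg.Agent.Lib.EECore

/-! ### abstract recursion -/
section
variable {A : Type*} [Group A] {M : Subgroup A} {n : A} {U : ℕ → Subgroup A}

theorem rec_A (hU : ∀ i, U i ≤ M) (hN : ∀ i, ∀ m ∈ M, ∀ x ∈ U i, m * x * m⁻¹ ∈ U i)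
    (hlo1 : ∀ i, U (i + 1) ≤ U i) (hlo2 : ∀ i, ∀ x ∈ U (i + 1), n⁻¹ * x * n ∈ U i)
    (hup : ∀ i, ∀ K : Subgroup A, K ≤ U i → (∀ x ∈ K, n⁻¹ * x * n ∈ U i) → (∀ m ∈ M, ∀ x ∈ K, m * x * m⁻¹ ∈ K) →
      K ≤ U (i + 1)) (i : ℕ) :
    U (i + 1) = ((U i ⊓ (U i).map (MulAut.conj n).toMonoidHom).subgroupOf M).normalCore.map M.subtype := by
  have hmem : ∀ x : A, x ∈ (U i).map (MulAut.conj n).toMonoidHom ↔ n⁻¹ * x * n ∈ U i := by
    intro x
    constructor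
    · rintro ⟨u, hu, rfl⟩
      simpa [mul_assoc] using hu
    · intro h
      exact ⟨_, h, by simp [mul_assoc]⟩
  apply le_antisymm
  · intro x hx
    refine ⟨⟨x, hU _ hx⟩, ?_, rfl⟩
    rw [SetLike.mem_coe]
    intro m
    have h1 : (m : A) * x * (m : A)⁻¹ ∈ U (i + 1) := hN _ m m.2 x hx
    show (m : A) * x * (m : A)⁻¹ ∈ U i ⊓ (U i).map (MulAut.conj n).toMonoidHom
    exact ⟨hlo1 i h1, (hmem _).mpr (hlo2 i _ h1)⟩
  · refine hup i _ ?_ ?_ ?_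
    · rintro _ ⟨y, hy, rfl⟩
      have := Subgroup.normalCore_le _ hy
      exact (Subgroup.mem_subgroupOf.mp this).1
    · rintro _ ⟨y, hy, rfl⟩
      have := Subgroup.normalCore_le _ hy
      exact (hmem _).mp (Subgroup.mem_subgroupOf.mp this).2
    · rintro m hm _ ⟨y, hy, rfl⟩
      refine ⟨⟨m, hm⟩ * y * ⟨m, hm⟩⁻¹, ?_, by simp⟩
      exact Subgroup.Normal.conj_mem inferInstance y hy ⟨m, hm⟩

theorem rec_B (hU : ∀ i, U i ≤ M) (hN : ∀ i, ∀ m ∈ M, ∀ x ∈ U i, m * x * m⁻¹ ∈ U i) (hn : n * n ∈ M)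
    (hlo1 : ∀ i, U (i + 1) ≤ U i) (hlo2 : ∀ i, ∀ x ∈ U (i + 1), n⁻¹ * x * n ∈ U i)
    (hup : ∀ i, ∀ K : Subgroup A, K ≤ U i → (∀ x ∈ K, n⁻¹ * x * n ∈ U i) → (∀ m ∈ M, ∀ x ∈ K, m * x * m⁻¹ ∈ K) →
      K ≤ U (i + 1)) (i : ℕ) :
    (U (i + 1)).map (MulAut.conj n).toMonoidHom =
      ((U i ⊓ (U i).map (MulAut.conj n).toMonoidHom).subgroupOf (M.map (MulAut.conj n).toMonoidHom)).normalCore.map
        (M.map (MulAut.conj n).toMonoidHom).subtype := by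
  have hmem : ∀ (V : Subgroup A) (x : A), x ∈ V.map (MulAut.conj n).toMonoidHom ↔ n⁻¹ * x * n ∈ V := by
    intro V x
    constructor
    · rintro ⟨u, hu, rfl⟩
      simpa [mul_assoc] using hu
    · intro h
      exact ⟨_, h, by simp [mul_assoc]⟩
  have hsw : ∀ x : A, n⁻¹ * x * n ∈ U i ↔ n * x * n⁻¹ ∈ U i := by
    intro x
    constructor
    · intro h
      have := hN i _ hn _ h
      have h2 : n * n * (n⁻¹ * x * n) * (n * n)⁻¹ = n * x * n⁻¹ := by group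
      rwa [h2] at this
    · intro h
      have := hN i _ (inv_mem hn) _ h
      have h2 : (n * n)⁻¹ * (n * x * n⁻¹) * (n * n)⁻¹⁻¹ = n⁻¹ * x * n := by group
      rwa [h2] at this
  apply le_antisymm
  · intro x hx
    have hxM : x ∈ M.map (MulAut.conj n).toMonoidHom := Subgroup.map_mono (hU _) hx
    refine ⟨⟨x, hxM⟩, ?_, rfl⟩
    rw [SetLike.mem_coe]
    rintro ⟨m, hm⟩
    show m * x * m⁻¹ ∈ U i ⊓ (U i).map (MulAut.conj n).toMonoidHom
    have h1 := (hmem _ _).mp hm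
    have h2 := (hmem _ _).mp hx
    have h3 := hN _ _ h1 _ h2
    have h4 : n⁻¹ * m * n * (n⁻¹ * x * n) * (n⁻¹ * m * n)⁻¹ = n⁻¹ * (m * x * m⁻¹) * n := by group
    rw [h4] at h3
    refine ⟨?_, (hmem _ _).mpr (hlo1 i h3)⟩
    have h5 := (hsw _).mp (hlo2 i _ h3)
    have h6 : n * (n⁻¹ * (m * x * m⁻¹) * n) * n⁻¹ = m * x * m⁻¹ := by group
    rwa [h6] at h5
  · set C := ((U i ⊓ (U i).map (MulAut.conj n).toMonoidHom).subgroupOf
      (M.map (MulAut.conj n).toMonoidHom)).normalCore.map (M.map (MulAut.conj n).toMonoidHom).subtype with hC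
    have hC1 : ∀ x ∈ C, x ∈ U i ∧ n⁻¹ * x * n ∈ U i := by
      rintro _ ⟨y, hy, rfl⟩
      have := Subgroup.mem_subgroupOf.mp (Subgroup.normalCore_le _ hy)
      exact ⟨this.1, (hmem _ _).mp this.2⟩
    have hC2 : ∀ m ∈ M, ∀ x ∈ C, (n * m * n⁻¹) * x * (n * m * n⁻¹)⁻¹ ∈ C := by
      rintro m hm _ ⟨y, hy, rfl⟩
      have h1 : n * m * n⁻¹ ∈ M.map (MulAut.conj n).toMonoidHom := ⟨m, hm, rfl⟩
      refine ⟨⟨_, h1⟩ * y * ⟨_, h1⟩⁻¹, ?_, rfl⟩
      exact Subgroup.Normal.conj_mem inferInstance y hy ⟨_, h1⟩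
    have h3 := hup i (C.map (MulAut.conj n⁻¹).toMonoidHom) ?_ ?_ ?_
    · intro x hx
      refine (hmem _ _).mpr (h3 ⟨x, hx, ?_⟩)
      simp
    · rintro _ ⟨x, hx, rfl⟩
      have := (hC1 x hx).2
      simpa using this
    · rintro _ ⟨x, hx, rfl⟩
      have h4 := (hC1 x hx).1
      have h5 := hN i _ (inv_mem hn) _ h4
      have h6 : n⁻¹ * (MulAut.conj n⁻¹).toMonoidHom x * n = (n * n)⁻¹ * x * (n * n)⁻¹⁻¹ := by
        simp [mul_assoc]
      rw [h6]; exact h5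
    · rintro m hm _ ⟨x, hx, rfl⟩
      refine ⟨_, hC2 m hm x hx, ?_⟩
      simp [mul_assoc]

end

/-! ### the tables of `E_8` -/
section
open Cfsg.Lie Cfsg.Agent.Lib.ChevX Cfsg.Agent.Lib.ChevGood Cfsg.Agent.Lib.ChevRel

/-- the node with coefficient `6` -/
def cok (r : ℕ) : ℤ := (chevE8.coroot.getD r #[]).getD 3 0

theorem sym8 : ∀ i < 8, ∀ k < 8, chevE8.cartan i (chevE8.simple k) = chevE8.cartan k (chevE8.simple i) := by
  decide +kernel

theorem tab8 : ∀ r < 240, 120 ≤ r → r ≠ chevE8.simple 3 →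
    (∃ i < 8, i ≠ 3 ∧ 0 < chevE8.cartan i r) ∨ (2 ≤ cok r ∧ 0 < chevE8.cartan 3 r) := by
  decide +kernel

theorem le8 : ∀ r < 240, 120 ≤ r → r ≠ chevE8.simple 3 → chevE8.cartan 3 r ≤ 1 := by
  decide +kernel

theorem max8 : ∀ r < 240, cok r ≤ 6 := by
  decide +kernel

theorem top8 : cok 239 = 6 := by
  decide +kernel

end

end Cfsg.Agent.Lib.EECore
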