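import Cfsg.Agent.Lib.EECore3
import Cfsg.Agent.Lib.ChevNPerm

set_option autoImplicit false
set_option linter.style.haveILetI false
set_option linter.unusedVariables false
set_option linter.unusedSectionVars false

/-!
The maximal parabolic subgroup of `E_8(2)` at the node with coefficient `6`.
-/

namespace Cfsg.Agent.Lib.EECore
open Cfsg.Lie Cfsg.Agent.Lib.ChevX Cfsg.Agent.Lib.ChevGood Cfsg.Agent.Lib.ChevRel Cfsg.Agent.Lib.ChevLev
open Cfsg.Agent.Lib.ChevU Cfsg.Agent.Lib.ChevH Cfsg.Agent.Lib.ChevN Cfsg.Agent.Lib.ChevBN Cfsg.Agent.Lib.ChevPar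
open scoped MatrixGroups Matrix

section
variable {D : ChevalleyDatum} (G : Good D)
include G

theorem rv_eq_co (hsym : ∀ i < D.rank, ∀ k < D.rank, D.cartan i (D.simple k) = D.cartan k (D.simple i)) :
    ∀ r < D.nroots, ∀ j, G.rv r j = co D r j := by
  apply ChevNPerm.root_induction G (fun r => ∀ j, G.rv r j = co D r j)
  · intro i hi j
    rw [G.rv_simple i hi, G.co_simple i hi]
  · intro i hi s hs ih j
    rw [G.rv_w i hi s hs, G.co_w i hi s hs, ih j]
    split_ifs with h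
    · rw [G.ca_lin i hi s hs]
      congr 1
      refine Finset.sum_congr rfl fun k hk => ?_
      rw [ih k, hsym i hi k (Finset.mem_range.mp hk)]
    · rfl

theorem borel_two {F : Type*} [Field F] (hF : ∀ c : F, c ≠ 0 → c = 1) : D.borelSubgroup F = D.posUnipotent F := by
  have h1 : D.diagonalSubgroup F = ⊥ := by
    rw [eq_bot_iff, diagonalSubgroup_eq G, Subgroup.closure_le]
    rintro g ⟨r, hr, t, ht, rfl⟩
    rw [hF t ht, SetLike.mem_coe, Subgroup.mem_bot]
    unfold hg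
    rw [← ChevN.ng_inv G, mul_inv_cancel]
  unfold ChevalleyDatum.borelSubgroup
  rw [h1, sup_bot_eq]

end

theorem nr8 : chevE8.nroots = 240 := rfl
theorem rk8 : chevE8.rank = 8 := rfl

section
variable (G : Good chevE8)
include G

theorem rv8 (r : ℕ) (hr : r < chevE8.nroots) : G.rv r 3 = cok r := by
  have h1 : ∀ i < chevE8.rank, ∀ k < chevE8.rank, chevE8.cartan i (chevE8.simple k) = chevE8.cartan k (chevE8.simple i) :=
    fun i hi k hk => sym8 i (by rw [rk8] at hi; exact hi) k (by rw [rk8] at hk; exact hk)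
  rw [rv_eq_co G h1 r hr 3, co, cok]

theorem tabG8 : Tab G 3 := by
  intro r hr hne
  have h1 := (G.isPos_iff r).mp hr
  rw [nr8] at h1
  rw [rv8 G r hr.1, rk8]
  have h2 : 120 ≤ r := by have := h1.1; omega
  have h3 := tab8 r h1.2 h2 hne
  exact h3

theorem isPos8 {r : ℕ} : chevE8.IsPosRoot r ↔ 120 ≤ r ∧ r < 240 := by
  rw [G.isPos_iff r, nr8]

theorem c3_le {r : ℕ} (hr : chevE8.IsPosRoot r) (hne : r ≠ chevE8.simple 3) : chevE8.cartan 3 r ≤ 1 :=
  le8 r ((isPos8 G).mp hr).2 ((isPos8 G).mp hr).1 hne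

theorem hj8 : 3 < chevE8.rank := by rw [rk8]; norm_num

variable {F : Type*} [Field F]

/-- the level goes down by at most one -/
theorem lv_down {m : ℤ} (hm : 1 ≤ m) : chevE8.reflectRoot 3 '' (Lv G 3 (m + 1)) ⊆ Lv G 3 m := by
  rintro _ ⟨r, hr, rfl⟩
  refine ⟨G.w_lt 3 (hj8 G) r hr.1, ?_⟩
  have hne : r ≠ chevE8.simple 3 := by
    rintro rfl
    have := hr.2
    rw [G.rv_simple 3 (hj8 G), if_pos rfl] at this
    omega
  have h1 := c3_le G (Lv_pos G (by omega) r hr) hne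
  rw [G.rv_w 3 (hj8 G) r hr.1, if_pos rfl]
  have := hr.2
  omega

theorem XS_Lv_le_U {m : ℤ} (hm : 1 ≤ m) : XS chevE8 F (Lv G 3 m) ≤ chevE8.posUnipotent F := by
  rw [posUnipotent_eq G]
  exact XS_mono (Lv_pos G hm)

/-- the parabolic subgroup at the node 3 -/
abbrev P3 (F : Type*) [Field F] : Subgroup (GL chevE8.Idx F) := chevE8.parabolicSubgroup F {i | i ≠ 3}

omit G in
/-- the series -/
noncomputable def Ser (G : Good chevE8) (F : Type*) [Field F] : ℕ → Subgroup (GL chevE8.Idx F)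
  | 0 => P3 F
  | (i + 1) => XS chevE8 F (Lv G 3 ((i : ℤ) + 2))

theorem ser_le (i : ℕ) : Ser G F i ≤ P3 F := by
  cases i with
  | zero => exact le_rfl
  | succ i => exact (XS_Lv_le_U G (by omega)).trans (U_le_B.trans (B_le_P G _))

theorem ser_norm (i : ℕ) : ∀ m ∈ P3 F, ∀ x ∈ Ser G F i, m * x * m⁻¹ ∈ Ser G F i := by
  intro m hm x hx
  cases i with
  | zero => exact mul_mem (mul_mem hm hx) (inv_mem hm)
  | succ i => exact (Subgroup.mem_normalizer_iff.mp (P_le_normalizer_Lv G (by omega) hm) x).mp hx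

theorem ser_anti (i : ℕ) : Ser G F (i + 1) ≤ Ser G F i := by
  cases i with
  | zero => exact ser_le G 1
  | succ i => exact XS_mono fun r hr => ⟨hr.1, by have := hr.2; push_cast at this; omega⟩

theorem ser_conj (i : ℕ) : ∀ x ∈ Ser G F (i + 1),
    (ng chevE8 F (chevE8.simple 3) 1)⁻¹ * x * ng chevE8 F (chevE8.simple 3) 1 ∈ Ser G F i := by
  intro x hx
  have h1 := conj_XS' G (hj8 G) (S := Lv G 3 ((i : ℤ) + 2)) (fun r hr => hr.1) hx
  have h2 : (ng chevE8 F (chevE8.simple 3) 1)⁻¹ * x * ng chevE8 F (chevE8.simple 3) 1 ∈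
      XS chevE8 F (Lv G 3 ((i : ℤ) + 1)) := by
    refine XS_mono ?_ h1
    have := lv_down G (m := (i : ℤ) + 1) (by omega)
    rwa [add_assoc] at this
  cases i with
  | zero => exact B_le_P G _ (U_le_B (XS_Lv_le_U G (by simp) h2))
  | succ i =>
    have h3 : ((i + 1 : ℕ) : ℤ) + 1 = (i : ℤ) + 2 := by push_cast; ring
    rw [h3] at h2
    exact h2

theorem ser_up (hF : ∀ c : F, c ≠ 0 → c = 1) (i : ℕ) (K : Subgroup (GL chevE8.Idx F)) (hK : K ≤ Ser G F i)
    (h1 : ∀ x ∈ K, (ng chevE8 F (chevE8.simple 3) 1)⁻¹ * x * ng chevE8 F (chevE8.simple 3) 1 ∈ Ser G F i)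
    (h2 : ∀ m ∈ P3 F, ∀ x ∈ K, m * x * m⁻¹ ∈ K) : K ≤ Ser G F (i + 1) := by
  have hP1 : ∀ x ∈ K, (ng chevE8 F (chevE8.simple 3) 1)⁻¹ * x * ng chevE8 F (chevE8.simple 3) 1 ∈ P3 F :=
    fun x hx => ser_le G i (h1 x hx)
  have hKB : K ≤ chevE8.borelSubgroup F := by
    refine le_borel G (hj8 G) ChevSimple.connE8 ?_ (hK.trans (ser_le G i)) h2 hP1
    intro i hi k hk h
    rw [← sym8 i (by rw [rk8] at hi; exact hi) k (by rw [rk8] at hk; exact hk)]
    exact h
  rw [borel_two G hF] at hKB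
  have hn1 : ∀ i < chevE8.rank, i ≠ 3 → ∀ x ∈ K,
      ng chevE8 F (chevE8.simple i) 1 * x * (ng chevE8 F (chevE8.simple i) 1)⁻¹ ∈ K :=
    fun i hi hi3 x hx => h2 _ (ng_mem_P G (J := {i | i ≠ 3}) hi3 hi) x hx
  have hn2 : ∀ i < chevE8.rank, i ≠ 3 → ∀ x ∈ K,
      (ng chevE8 F (chevE8.simple i) 1)⁻¹ * x * ng chevE8 F (chevE8.simple i) 1 ∈ K := by
    intro i hi hi3 x hx
    have := h2 _ (inv_mem (ng_mem_P G (J := {i | i ≠ 3}) hi3 hi)) x hx
    rwa [inv_inv] at this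
  have hpos := Smin_pos G hKB
  have hfin : (∀ r ∈ Smin G K, (i : ℤ) + 2 ≤ G.rv r 3) → K ≤ Ser G F (i + 1) := by
    intro h
    exact (le_XS_Smin G hKB).trans (XS_mono fun r hr => ⟨(hpos r hr).1, h r hr⟩)
  apply hfin
  cases i with
  | zero =>
    have h3 := core_step G (hj8 G) (tabG8 G) hKB hn1 hn2 hP1 (m := 0)
      (fun r hr => G.rv_nonneg r (hpos r hr).1 ((G.isPos_iff r).mp (hpos r hr)).1 3) (by norm_num)
    have h4 := core_step G (hj8 G) (tabG8 G) hKB hn1 hn2 hP1 (m := 1) (fun r hr => by have := h3 r hr; omega)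
      (by norm_num)
    intro r hr
    have := h4 r hr
    push_cast
    omega
  | succ i =>
    have h3 : ∀ r ∈ Smin G K, (i : ℤ) + 2 ≤ G.rv r 3 := fun r hr =>
      (Smin_le G (Lv_pos G (by omega)) (Lv_closed G (by omega)) hK hr).2
    have h4 := core_step G (hj8 G) (tabG8 G) hKB hn1 hn2 hP1 (m := (i : ℤ) + 2) h3 (fun _ => h1)
    intro r hr
    have := h4 r hr
    push_cast
    omega

theorem ser_six : Ser G F 6 = ⊥ := by
  rw [eq_bot_iff]
  refine XS_le fun r hr t => ?_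
  exfalso
  have h1 := hr.2
  rw [rv8 G r hr.1] at h1
  have h2 := max8 r (by have := hr.1; rw [nr8] at this; exact this)
  push_cast at h1
  omega

theorem ser_five : Ser G F 5 ≠ ⊥ := by
  intro h
  have h1 : xg chevE8 F 239 1 ∈ Ser G F 5 := by
    refine xg_mem_XS (show 239 ∈ Lv G 3 (((4 : ℕ) : ℤ) + 2) from ⟨by rw [nr8]; norm_num, ?_⟩) 1
    rw [rv8 G 239 (by rw [nr8]; norm_num), top8]
    norm_num
  rw [h, Subgroup.mem_bot] at h1
  have h2 := xg_inj (F := F) G (r := 239) (s := 238) (t := 1) (u := 0) (by rw [nr8]; norm_num) (by rw [nr8]; norm_num) one_ne_zero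
    (by rw [h1, xg_zero G])
  omega

end

end Cfsg.Agent.Lib.EECore
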