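import Mathlib
import Cfsg.Agent.Lib.ThompsonTransfer
import Cfsg.Agent.Lib.H55Thompson

/-!
S2911: a group with Sylow 2-subgroup `C₂ × D₈` has a subgroup of index two.
-/

set_option autoImplicit false

namespace Cfsg.Agent.Lib.ElabD8

open Subgroup

/-- the 2-group -/
abbrev P := Multiplicative (ZMod 2) × DihedralGroup 4

/-- homomorphisms of `D₈` to `C₂` -/
def chif (i j : ZMod 2) : DihedralGroup 4 → Multiplicative (ZMod 2)
  | .r k => Multiplicative.ofAdd ((i + j) * (k.val : ZMod 2))
  | .sr k => Multiplicative.ofAdd (i + (i + j) * (k.val : ZMod 2))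

/-- homomorphisms of `D₈` to `C₂` -/
def chi (i j : ZMod 2) : DihedralGroup 4 →* Multiplicative (ZMod 2) where
  toFun := chif i j
  map_one' := by revert i j; decide
  map_mul' := by revert i j; decide

/-- the homomorphism of `P` with kernel the diagonal subgroup -/
def theta (i j : ZMod 2) : P →* Multiplicative (ZMod 2) where
  toFun x := x.1 * chi i j x.2
  map_one' := by simp
  map_mul' x y := by simp [mul_mul_mul_comm]

def z : P := (Multiplicative.ofAdd 1, 1)
def c : P := (1, .r 2)
def s (i : ZMod 2) (k : ZMod 4) : P := (Multiplicative.ofAdd i, .sr k)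
def rr : P := (1, .r 1)

theorem inv_cases : ∀ x : P, x * x = 1 → x = 1 ∨ x = c ∨ x = z ∨ x = z * c ∨ ∃ i k, x = s i k := by
  decide

set_option synthInstance.maxSize 1000 in
theorem ker_cases : ∀ (i j : ZMod 2) (x : P), x.1 * chif i j x.2 = 1 → x * x = 1 → x = 1 ∨ x = c ∨
    x = s i 0 ∨ x = s i 2 ∨ x = s j 1 ∨ x = s j 3 := by
  decide

theorem c_central : ∀ x : P, x * c = c * x := by decide
theorem z_central : ∀ x : P, x * z = z * x := by decide
theorem zc_central : ∀ x : P, x * (z * c) = (z * c) * x := by decide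
theorem comm_mem : ∀ x y : P, x * y * x⁻¹ * y⁻¹ = 1 ∨ x * y * x⁻¹ * y⁻¹ = c := by decide
theorem c_comm : s 0 0 * s 0 1 * (s 0 0)⁻¹ * (s 0 1)⁻¹ = c := by decide
theorem conj_s : ∀ i k, rr * s i k * rr⁻¹ = s i (k + 2) := by decide
theorem s_mul_c : ∀ i k, s i k * c = s i (k + 2) := by decide
theorem sq_s : ∀ i k, s i k * s i k = 1 := by decide
theorem sq_z : z * z = 1 := by decide
theorem sq_zc : z * c * (z * c) = 1 := by decide
theorem sq_c : c * c = 1 := by decide
theorem z_ne : z ≠ 1 := by decide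
theorem zc_ne : z * c ≠ 1 := by decide
theorem c_ne : c ≠ 1 := by decide
theorem z_ne_c : z ≠ c := by decide
theorem zc_ne_c : z * c ≠ c := by decide
theorem z_ne_zc : z ≠ z * c := by decide
theorem theta_surj : ∀ i j, theta i j z ≠ 1 := by decide

universe u

variable {G : Type u} [Group G]

/-- conjugacy as an explicit relation -/
def Cj (x y : G) : Prop := ∃ g : G, g * x * g⁻¹ = y

theorem Cj.symm {x y : G} (h : Cj x y) : Cj y x := by
  obtain ⟨g, rfl⟩ := h
  exact ⟨g⁻¹, by group⟩

theorem Cj.trans {x y w : G} (h : Cj x y) (h' : Cj y w) : Cj x w := by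
  obtain ⟨g, rfl⟩ := h
  obtain ⟨k, rfl⟩ := h'
  exact ⟨k * g, by group⟩

variable [Finite G] (S : Sylow 2 G) (f : P →* G) (hf : Function.Injective f) (hr : f.range = (S : Subgroup G))

include hr in
theorem exists_norm {x y : P} (hx : ∀ w : P, w * x = x * w) (hy : ∀ w : P, w * y = y * w) (h : Cj (f x) (f y)) :
    ∃ g ∈ normalizer ((S : Subgroup G) : Set G), g * f x * g⁻¹ = f y := by
  obtain ⟨g0, hg0⟩ := h
  have hmem : ∀ w ∈ (S : Subgroup G), ∃ v, f v = w := by
    intro w hw
    rw [← hr] at hw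
    exact hw
  obtain ⟨g, hg, hgS⟩ := Lib.H55Thompson.exists_conj_into S (b := f x) (c := f y) (h := g0)
    (by
      intro w hw
      obtain ⟨v, rfl⟩ := hmem w hw
      rw [← map_mul, ← map_mul, hy]) hg0
  refine ⟨g, ?_, hg⟩
  have hle : (S : Subgroup G).map (MulAut.conj g).toMonoidHom ≤ S := by
    rintro _ ⟨w, hw, rfl⟩
    apply hgS w hw
    obtain ⟨v, rfl⟩ := hmem w hw
    rw [← map_mul, ← map_mul, hx]
  have heq : (S : Subgroup G).map (MulAut.conj g).toMonoidHom = S := by
    apply Subgroup.eq_of_le_of_card_ge hle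
    rw [Nat.card_congr ((S : Subgroup G).equivMapOfInjective (MulAut.conj g).toMonoidHom
      (MulAut.conj g).injective).toEquiv]
  rw [mem_normalizer_iff]
  intro w
  constructor
  · intro hw
    exact hle ⟨w, hw, rfl⟩
  · intro hw
    have hw2 : g * w * g⁻¹ ∈ (S : Subgroup G).map (MulAut.conj g).toMonoidHom := by rw [heq]; exact hw
    obtain ⟨w', hw', he⟩ := hw2
    have : w' = w := by
      have h1 : g * w' * g⁻¹ = g * w * g⁻¹ := he
      exact mul_left_cancel (mul_right_cancel h1)
    rwa [← this]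

include hf hr in
theorem fix_c {g : G} (hg : g ∈ normalizer ((S : Subgroup G) : Set G)) : g * f c * g⁻¹ = f c := by
  have h1 : ∀ x : P, ∃ y, f y = g * f x * g⁻¹ := by
    intro x
    have h2 : f x ∈ (S : Subgroup G) := by rw [← hr]; exact ⟨x, rfl⟩
    have h3 : g * f x * g⁻¹ ∈ (S : Subgroup G) := ((mem_normalizer_iff.mp hg) (f x)).mp h2
    rw [← hr] at h3
    exact h3
  obtain ⟨a, ha⟩ := h1 (s 0 0)
  obtain ⟨b, hb⟩ := h1 (s 0 1)
  have h2 : g * f c * g⁻¹ = f (a * b * a⁻¹ * b⁻¹) := by
    rw [← c_comm]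
    simp only [map_mul, map_inv]
    rw [ha, hb]
    group
  rcases comm_mem a b with h3 | h3
  · exfalso
    rw [h3, map_one] at h2
    have h4 : f c = 1 := by
      have : f c = g⁻¹ * (g * f c * g⁻¹) * g := by group
      rw [this, h2]; group
    exact c_ne (hf (by rw [h4, map_one]))
  · rw [h2, h3]

include hf hr in
theorem not_zc : ¬ Cj (f z) (f c) := by
  intro h
  obtain ⟨g, hg, hgz⟩ := exists_norm S f hr z_central c_central h
  have h1 := fix_c S f hf hr hg
  rw [← h1] at hgz
  exact z_ne_c (hf (mul_left_cancel (mul_right_cancel hgz)))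

include hf hr in
theorem not_zcc : ¬ Cj (f (z * c)) (f c) := by
  intro h
  obtain ⟨g, hg, hgz⟩ := exists_norm S f hr zc_central c_central h
  have h1 := fix_c S f hf hr hg
  rw [← h1] at hgz
  exact zc_ne_c (hf (mul_left_cancel (mul_right_cancel hgz)))

include hf hr in
theorem not_zzc : ¬ Cj (f z) (f (z * c)) := by
  intro h
  obtain ⟨g, hg, hgz⟩ := exists_norm S f hr z_central zc_central h
  have h1 := fix_c S f hf hr hg
  have h2 : g * f (z * c) * g⁻¹ = f z := by
    have : g * f (z * c) * g⁻¹ = (g * f z * g⁻¹) * (g * f c * g⁻¹) := by rw [map_mul]; group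
    rw [this, hgz, h1, ← map_mul, mul_assoc, sq_c, mul_one]
  have h3 := Lib.H55Thompson.no_swap S hg (c := f z) (d := f (z * c)) (by
    intro w hw
    have hw' : w ∈ (S : Subgroup G) := hw
    rw [← hr] at hw'
    obtain ⟨v, rfl⟩ := hw'
    rw [← map_mul, ← map_mul, z_central]) hgz h2
  exact z_ne_zc (hf h3)

include hf hr in
/-- Thompson transfer with respect to the diagonal subgroups. -/
theorem transfer_cases (hno : ∀ H : Subgroup G, H.index ≠ 2) (i j : ZMod 2) {y : P} (hy : y * y = 1) (hy1 : y ≠ 1)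
    (hyt : theta i j y ≠ 1) (hyc : ¬ Cj (f y) (f c)) : Cj (f y) (f (s i 0)) ∨ Cj (f y) (f (s j 1)) := by
  by_contra hcon
  push Not at hcon
  obtain ⟨hc1, hc2⟩ := hcon
  have hss : ∀ i k, Cj (f (s i k)) (f (s i (k + 2))) := fun i k => ⟨f rr, by
    rw [← map_inv, ← map_mul, ← map_mul, conj_s]⟩
  have hQi : ((theta i j).ker.map f).relIndex (S : Subgroup G) = 2 := by
    rw [← hr, MonoidHom.range_eq_map, relIndex_map_map_of_injective _ _ hf, relIndex_top_right, index_ker]
    have h1 : Nat.card (theta i j).range ∣ 2 := by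
      have h2 := Subgroup.card_subgroup_dvd_card (theta i j).range
      have h3 : Nat.card (Multiplicative (ZMod 2)) = 2 := by
        rw [Nat.card_congr Multiplicative.toAdd, Nat.card_zmod]
      rwa [h3] at h2
    rcases (Nat.dvd_prime Nat.prime_two).mp h1 with h | h
    · exfalso
      rw [Subgroup.card_eq_one] at h
      have : theta i j z ∈ (theta i j).range := ⟨z, rfl⟩
      rw [h, Subgroup.mem_bot] at this
      exact theta_surj i j this
    · exact h
  obtain ⟨M, -, hM, -⟩ := Lib.ThompsonTransfer.thompson_transfer S ((theta i j).ker.map f) hQi (f y)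
    (by
      rw [orderOf_injective f hf]
      exact orderOf_eq_prime (by rw [pow_two, hy]) hy1)
    (by rw [← hr]; exact ⟨y, rfl⟩)
    (by
      rintro g ⟨x, hx, hxg⟩
      have hx1 : x * x = 1 := by
        apply hf
        rw [map_mul, hxg, map_one]
        have : g * f y * g⁻¹ * (g * f y * g⁻¹) = g * (f y * f y) * g⁻¹ := by group
        rw [this, ← map_mul, hy, map_one]; group
      have hcj : Cj (f y) (f x) := ⟨g, hxg.symm⟩
      rcases ker_cases i j x hx hx1 with h | h | h | h | h | h
      · rw [h, map_one] at hxg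
        apply hy1
        apply hf
        have : f y = g⁻¹ * (g * f y * g⁻¹) * g := by group
        rw [this, ← hxg, map_one]; group
      · rw [h] at hcj; exact hyc hcj
      · rw [h] at hcj; exact hc1 hcj
      · rw [h] at hcj
        have h5 := hss i 2
        exact hc1 (hcj.trans (by
          have : (2 : ZMod 4) + 2 = 0 := by decide
          rwa [this] at h5))
      · rw [h] at hcj; exact hc2 hcj
      · rw [h] at hcj
        have h5 := hss j 3
        exact hc2 (hcj.trans (by
          have : (3 : ZMod 4) + 2 = 1 := by decide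
          rwa [this] at h5)))
  exact hno M hM

include hf hr in
/-- the final contradiction -/
theorem contra {k l : ZMod 4} (hkl : ∀ m : ZMod 4, m = k ∨ m = k + 2 ∨ m = l ∨ m = l + 2)
    (h1 : ∀ i, Cj (f z) (f (s i k))) (h2 : ∀ i, Cj (f (z * c)) (f (s i l))) : False := by
  have hss : ∀ i k, Cj (f (s i k)) (f (s i (k + 2))) := fun i k => ⟨f rr, by
    rw [← map_inv, ← map_mul, ← map_mul, conj_s]⟩
  have h1' : ∀ i, Cj (f z) (f (s i (k + 2))) := fun i => (h1 i).trans (hss i k)
  have h2' : ∀ i, Cj (f (z * c)) (f (s i (l + 2))) := fun i => (h2 i).trans (hss i l)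
  obtain ⟨g0, hg0⟩ := (h1 0).symm
  obtain ⟨g, hg, hgS⟩ := Lib.H55Thompson.exists_conj_into S (b := f (s 0 k)) (c := f z) (h := g0)
    (by
      intro w hw
      have hw' : w ∈ (S : Subgroup G) := hw
      rw [← hr] at hw'
      obtain ⟨v, rfl⟩ := hw'
      rw [← map_mul, ← map_mul, z_central]) hg0
  have hmem : ∀ x : P, x * s 0 k = s 0 k * x → ∃ y, f y = g * f x * g⁻¹ := by
    intro x hx
    have h3 : f x ∈ (S : Subgroup G) := by rw [← hr]; exact ⟨x, rfl⟩
    have h4 : g * f x * g⁻¹ ∈ (S : Subgroup G) := hgS (f x) h3 (by rw [← map_mul, ← map_mul, hx])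
    rw [← hr] at h4
    exact h4
  -- squares and nontriviality
  have hsq : ∀ x y : P, f y = g * f x * g⁻¹ → x * x = 1 → y * y = 1 := by
    intro x y hxy hx
    apply hf
    rw [map_mul, hxy, map_one]
    have : g * f x * g⁻¹ * (g * f x * g⁻¹) = g * (f x * f x) * g⁻¹ := by group
    rw [this, ← map_mul, hx, map_one]; group
  have hne : ∀ x y : P, f y = g * f x * g⁻¹ → x ≠ 1 → y ≠ 1 := by
    intro x y hxy hx hy
    apply hx
    apply hf
    have : f x = g⁻¹ * (g * f x * g⁻¹) * g := by group
    rw [this, ← hxy, hy, map_one]; group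
  obtain ⟨yc, hyc⟩ := hmem c (c_central _).symm
  obtain ⟨yz, hyz⟩ := hmem z (z_central _).symm
  have hcc : Cj (f c) (f yc) := ⟨g, hyc.symm⟩
  have hzz : Cj (f z) (f yz) := ⟨g, hyz.symm⟩
  have hnz := not_zc S f hf hr
  have hnzc := not_zcc S f hf hr
  have hnzz := not_zzc S f hf hr
  -- all `s i m` are conjugate to `z` or `z c`
  have hsm : ∀ i m, (Cj (f z) (f (s i m)) ∧ (m = k ∨ m = k + 2)) ∨ (Cj (f (z * c)) (f (s i m)) ∧ (m = l ∨ m = l + 2)) := by
    intro i m
    rcases hkl m with h | h | h | h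
    · left; rw [h]; exact ⟨h1 i, Or.inl rfl⟩
    · left; rw [h]; exact ⟨h1' i, Or.inr rfl⟩
    · right; rw [h]; exact ⟨h2 i, Or.inl rfl⟩
    · right; rw [h]; exact ⟨h2' i, Or.inr rfl⟩
  -- `yc = c`
  have hyc1 : yc = c := by
    rcases inv_cases yc (hsq c yc hyc sq_c) with h | h | h | h | ⟨i, m, h⟩
    · exact absurd h (hne c yc hyc c_ne)
    · exact h
    · rw [h] at hcc; exact absurd hcc.symm hnz
    · rw [h] at hcc; exact absurd hcc.symm hnzc
    · rw [h] at hcc
      rcases hsm i m with ⟨h3, -⟩ | ⟨h3, -⟩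
      · exact absurd (h3.trans hcc.symm) hnz
      · exact absurd (h3.trans hcc.symm) hnzc
  -- `yz` is of type `s i k`
  rcases inv_cases yz (hsq z yz hyz sq_z) with h | h | h | h | ⟨i, m, h⟩
  · exact hne z yz hyz z_ne h
  · rw [h] at hzz; exact hnz hzz
  · -- `yz = z = g (s 0 k) g⁻¹`
    have h5 : g * f (s 0 k) * g⁻¹ = g * f z * g⁻¹ := by rw [hg, ← hyz, h]
    have h3 := hf (mul_left_cancel (mul_right_cancel h5))
    have h4 : ∀ k : ZMod 4, s 0 k ≠ z := by decide
    exact h4 k h3
  · rw [h] at hzz; exact hnzz hzz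
  · rw [h] at hzz
    rcases hsm i m with ⟨h3, hm⟩ | ⟨h3, hm⟩
    · -- `g (z c) g⁻¹ = s i m * c = s i (m + 2)`
      have h5 : Cj (f (z * c)) (f (s i (m + 2))) := by
        refine ⟨g, ?_⟩
        have e1 : f c = g * f c * g⁻¹ := by
          conv_lhs => rw [← hyc1]
          exact hyc
        rw [← s_mul_c, map_mul, map_mul, ← h, hyz]
        conv_rhs => rw [e1]
        group
      have h6 : Cj (f z) (f (s i (m + 2))) := by
        rcases hm with hm | hm
        · rw [hm]; exact h1' i
        · have : m + 2 = k := by rw [hm, add_assoc]; have : (2 : ZMod 4) + 2 = 0 := by decide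
                                 rw [this, add_zero]
          rw [this]; exact h1 i
      exact hnzz (h6.trans h5.symm)
    · exact hnzz (hzz.trans h3.symm)

theorem main (hf : Function.Injective f) (hr : f.range = (S : Subgroup G)) : ∃ H : Subgroup G, H.index = 2 := by
  by_contra hcon
  push Not at hcon
  have hnz := not_zc S f hf hr
  have hnzc := not_zcc S f hf hr
  have hnzz := not_zzc S f hf hr
  have ht : ∀ i j, theta i j (z * c) ≠ 1 := by decide
  have key1 := fun i j => transfer_cases S f hf hr hcon i j sq_z z_ne (theta_surj i j) hnz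
  have key2 := fun i j => transfer_cases S f hf hr hcon i j sq_zc zc_ne (ht i j) hnzc
  have split : ∀ (A B : ZMod 2 → Prop), (∀ i j, A i ∨ B j) → (∀ i, A i) ∨ (∀ i, B i) := by
    intro A B h
    by_cases hA : ∀ i, A i
    · exact Or.inl hA
    · push Not at hA
      obtain ⟨i, hi⟩ := hA
      exact Or.inr fun j => (h i j).resolve_left hi
  have k1 := split _ _ key1
  have k2 := split _ _ key2
  rcases k1 with k1 | k1 <;> rcases k2 with k2 | k2
  · exact hnzz ((k1 0).trans (k2 0).symm)
  · exact contra S f hf hr (k := 0) (l := 1) (by decide) k1 k2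
  · exact contra S f hf hr (k := 1) (l := 0) (by decide) k1 k2
  · exact hnzz ((k1 0).trans (k2 0).symm)

end Cfsg.Agent.Lib.ElabD8
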