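import Mathlib

set_option autoImplicit false
set_option linter.unusedSectionVars false

/-!
# Primitive idempotents of group algebras of sections of extraspecial groups (helper80)
-/

namespace Cfsg.Agent.Lib.ExSpA

open Subgroup

variable {G : Type*} [Group G]

/-- the group element in the group algebra -/
noncomputable abbrev u (g : G) : MonoidAlgebra ℂ G := MonoidAlgebra.of ℂ G g

/-- the subspace spanned by a subgroup -/
noncomputable def sp (B : Subgroup G) : Submodule ℂ (MonoidAlgebra ℂ G) := Submodule.span ℂ (u '' (B : Set G))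

theorem u_mem {B : Subgroup G} {b : G} (hb : b ∈ B) : u b ∈ sp B :=
  Submodule.subset_span ⟨b, hb, rfl⟩

theorem sp_mono {B C : Subgroup G} (h : B ≤ C) : sp B ≤ sp C :=
  Submodule.span_mono (Set.image_mono h)

theorem coeff_u_mul (g h : G) (P : MonoidAlgebra ℂ G) : (u g * P).coeff h = P.coeff (g⁻¹ * h) := by
  simp [u, MonoidAlgebra.of_apply]

theorem coeff_mul_u (g h : G) (P : MonoidAlgebra ℂ G) : (P * u g).coeff h = P.coeff (h * g⁻¹) := by
  simp [u, MonoidAlgebra.of_apply]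

theorem coeff_u (g h : G) [DecidableEq G] : (u g : MonoidAlgebra ℂ G).coeff h = if g = h then 1 else 0 := by
  simp [u, MonoidAlgebra.of_apply, Finsupp.single_apply]

theorem sp_induction {B : Subgroup G} {p : MonoidAlgebra ℂ G → Prop} (hu : ∀ b ∈ B, p (u b)) (h0 : p 0)
    (ha : ∀ x y, p x → p y → p (x + y)) (hs : ∀ (c : ℂ) x, p x → p (c • x)) {P : MonoidAlgebra ℂ G}
    (hP : P ∈ sp B) : p P := by
  refine Submodule.span_induction (p := fun x _ => p x) ?_ h0 (fun x y _ _ => ha x y) (fun c x _ => hs c x) hP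
  rintro _ ⟨b, hb, rfl⟩
  exact hu b hb

theorem coeff_eq_zero {B : Subgroup G} {P : MonoidAlgebra ℂ G} (hP : P ∈ sp B) {g : G} (hg : g ∉ B) :
    P.coeff g = 0 := by
  classical
  refine sp_induction (p := fun P => P.coeff g = 0) ?_ ?_ ?_ ?_ hP
  · intro b hb
    rw [coeff_u, if_neg]
    rintro rfl
    exact hg hb
  · rfl
  · intro x y hx hy
    rw [MonoidAlgebra.coeff_add, Finsupp.add_apply, hx, hy, add_zero]
  · intro c x hx
    rw [MonoidAlgebra.coeff_smul_apply, hx, smul_zero]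

theorem sp_mul {B : Subgroup G} {P Q : MonoidAlgebra ℂ G} (hP : P ∈ sp B) (hQ : Q ∈ sp B) : P * Q ∈ sp B := by
  refine sp_induction (p := fun P => P * Q ∈ sp B) ?_ ?_ ?_ ?_ hP
  · intro b hb
    refine sp_induction (p := fun Q => u b * Q ∈ sp B) ?_ ?_ ?_ ?_ hQ
    · intro c hc
      rw [u, u, ← map_mul]
      exact u_mem (mul_mem hb hc)
    · rw [mul_zero]; exact zero_mem _
    · intro x y hx hy; rw [mul_add]; exact add_mem hx hy
    · intro c x hx; rw [mul_smul_comm]; exact Submodule.smul_mem _ _ hx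
  · rw [zero_mul]; exact zero_mem _
  · intro x y hx hy; rw [add_mul]; exact add_mem hx hy
  · intro c x hx; rw [smul_mul_assoc]; exact Submodule.smul_mem _ _ hx

theorem sp_comm {B C : Subgroup G} (h : ∀ b ∈ B, ∀ c ∈ C, b * c = c * b) {P Q : MonoidAlgebra ℂ G}
    (hP : P ∈ sp B) (hQ : Q ∈ sp C) : P * Q = Q * P := by
  refine sp_induction (p := fun P => P * Q = Q * P) ?_ ?_ ?_ ?_ hP
  · intro b hb
    refine sp_induction (p := fun Q => u b * Q = Q * u b) ?_ ?_ ?_ ?_ hQ
    · intro c hc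
      rw [u, u, ← map_mul, ← map_mul, h b hb c hc]
    · rw [mul_zero, zero_mul]
    · intro x y hx hy; rw [mul_add, add_mul, hx, hy]
    · intro c x hx; rw [mul_smul_comm, smul_mul_assoc, hx]
  · rw [mul_zero, zero_mul]
  · intro x y hx hy; rw [mul_add, add_mul, hx, hy]
  · intro c x hx; rw [mul_smul_comm, smul_mul_assoc, hx]

/-- `P` is a primitive idempotent of the section `B/A`, with `z` acting as `-1` -/
structure GP (z : G) (B A : Subgroup G) (P : MonoidAlgebra ℂ G) : Prop where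
  mem : P ∈ sp B
  idem : P * P = P
  neg : u z * P = -P
  triv : ∀ a ∈ A, u a * P = P
  prim : ∀ b ∈ B, ∃ c : ℂ, P * u b * P = c • P
  ne : P.coeff 1 ≠ 0

/-- the existence of an `S`-invariant primitive idempotent -/
def Good (z : G) (B A S : Subgroup G) : Prop :=
  ∃ P : MonoidAlgebra ℂ G, GP z B A P ∧ ∀ s ∈ S, u s * P = P * u s

section product

variable [Finite G] {z : G} {B₁ B₂ A : Subgroup G}

theorem coeff_mul_one (hzc : ∀ g : G, z * g = g * z) (hzA : z ∉ A) (hz2 : z * z = 1)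
    (hint : ∀ x ∈ B₁, x ∈ B₂ → x ∈ A ∨ x * z ∈ A) {Q : MonoidAlgebra ℂ G} (hQ : Q ∈ sp B₂)
    (hneg : ∀ x, Q.coeff (x * z) = - Q.coeff x) (htriv : ∀ a ∈ A, Q.coeff a = Q.coeff 1)
    {P : MonoidAlgebra ℂ G} (hP : P ∈ sp B₁) :
    (P * Q).coeff 1 = (∑ᶠ a : A, ((P.coeff (a : G) : ℂ) - P.coeff ((a : G) * z))) * Q.coeff 1 := by
  classical
  have := Fintype.ofFinite A
  rw [finsum_eq_sum_of_fintype]
  refine sp_induction (p := fun P => (P * Q).coeff 1 =
    (∑ a : A, ((P.coeff (a : G) : ℂ) - P.coeff ((a : G) * z))) * Q.coeff 1) ?_ ?_ ?_ ?_ hP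
  · intro b hb
    rw [coeff_u_mul, mul_one]
    simp only [coeff_u]
    by_cases hbA : b ∈ A
    · have h1 : ∀ a : A, ¬ b = (a : G) * z := by
        intro a ha
        apply hzA
        have : z = (a : G)⁻¹ * b := by rw [ha]; group
        rw [this]
        exact mul_mem (inv_mem a.2) hbA
      have h2 : ∑ a : A, ((if b = (a : G) then (1 : ℂ) else 0) - (if b = (a : G) * z then (1 : ℂ) else 0)) = 1 := by
        simp only [h1, if_false, sub_zero]
        rw [Finset.sum_eq_single (⟨b, hbA⟩ : A)]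
        · simp
        · rintro ⟨a, ha⟩ - hne
          rw [if_neg]
          rintro rfl
          exact hne rfl
        · intro h; exact absurd (Finset.mem_univ _) h
      rw [h2, one_mul, htriv b⁻¹ (inv_mem hbA)]
    · by_cases hbz : b * z ∈ A
      · have h1 : ∀ a : A, ¬ b = (a : G) := by
          rintro ⟨a, ha⟩ h
          exact hbA (h ▸ ha)
        have h2 : ∑ a : A, ((if b = (a : G) then (1 : ℂ) else 0) - (if b = (a : G) * z then (1 : ℂ) else 0)) = -1 := by
          simp only [h1, if_false, zero_sub]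
          rw [Finset.sum_eq_single (⟨b * z, hbz⟩ : A)]
          · rw [if_pos]
            change b = b * z * z
            rw [mul_assoc, hz2, mul_one]
          · rintro ⟨a, ha⟩ - hne
            rw [if_neg, neg_zero]
            intro h
            apply hne
            apply Subtype.ext
            change a = b * z
            rw [h]
            change a = a * z * z
            rw [mul_assoc, hz2, mul_one]
          · intro h; exact absurd (Finset.mem_univ _) h
        rw [h2]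
        have h3 : b⁻¹ * z = (b * z)⁻¹ := by
          have hzi : z⁻¹ = z := inv_eq_of_mul_eq_one_right hz2
          rw [mul_inv_rev, hzi, hzc]
        have h4 : Q.coeff b⁻¹ = - Q.coeff (b⁻¹ * z) := by
          rw [hneg, neg_neg]
        rw [h4, h3, htriv _ (inv_mem hbz), neg_one_mul]
      · have h1 : ∀ a : A, ¬ b = (a : G) := by
          rintro ⟨a, ha⟩ h
          exact hbA (h ▸ ha)
        have h1' : ∀ a : A, ¬ b = (a : G) * z := by
          rintro ⟨a, ha⟩ h
          apply hbz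
          rw [h]
          change a * z * z ∈ A
          rw [mul_assoc, hz2, mul_one]
          exact ha
        simp only [h1, h1', if_false, sub_zero, Finset.sum_const_zero, zero_mul]
        apply coeff_eq_zero hQ
        intro h
        rcases hint b hb (by rw [← inv_inv b]; exact inv_mem h) with h | h
        · exact hbA h
        · exact hbz h
  · simp
  · intro x y hx hy
    rw [add_mul, MonoidAlgebra.coeff_add, Finsupp.add_apply, hx, hy, ← add_mul, ← Finset.sum_add_distrib]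
    congr 1
    apply Finset.sum_congr rfl
    intro a _
    rw [MonoidAlgebra.coeff_add, Finsupp.add_apply, Finsupp.add_apply]
    ring
  · intro c x hx
    rw [smul_mul_assoc, MonoidAlgebra.coeff_smul_apply, hx, smul_eq_mul, ← mul_assoc, Finset.mul_sum]
    congr 1
    apply Finset.sum_congr rfl
    intro a _
    rw [MonoidAlgebra.coeff_smul_apply, MonoidAlgebra.coeff_smul_apply, smul_eq_mul, smul_eq_mul]
    ring

theorem GP.coeff_neg (hzc : ∀ g : G, z * g = g * z) (hz2 : z * z = 1) {B : Subgroup G} {P : MonoidAlgebra ℂ G}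
    (h : GP z B A P) (x : G) : P.coeff (x * z) = - P.coeff x := by
  have h1 := congrArg (fun Q : MonoidAlgebra ℂ G => Q.coeff x) h.neg
  simp only [coeff_u_mul, MonoidAlgebra.coeff_neg, Finsupp.neg_apply] at h1
  have hzi : z⁻¹ = z := inv_eq_of_mul_eq_one_right hz2
  rw [hzi, hzc] at h1
  exact h1

theorem GP.coeff_triv {B : Subgroup G} {P : MonoidAlgebra ℂ G}
    (h : GP z B A P) (a : G) (ha : a ∈ A) : P.coeff a = P.coeff 1 := by
  have h1 := congrArg (fun Q : MonoidAlgebra ℂ G => Q.coeff 1) (h.triv a⁻¹ (inv_mem ha))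
  simp only [coeff_u_mul] at h1
  rw [← h1, inv_inv, mul_one]

/-- product of commuting primitive idempotents -/
theorem GP.mul (hzc : ∀ g : G, z * g = g * z) (hzA : z ∉ A) (hz2 : z * z = 1)
    (hint : ∀ x ∈ B₁, x ∈ B₂ → x ∈ A ∨ x * z ∈ A) (hcom : ∀ b ∈ B₁, ∀ c ∈ B₂, b * c = c * b)
    {B : Subgroup G} (h1B : B₁ ≤ B) (h2B : B₂ ≤ B) (hB : ∀ b ∈ B, ∃ x ∈ B₁, ∃ y ∈ B₂, b = x * y)
    {P Q : MonoidAlgebra ℂ G} (hP : GP z B₁ A P) (hQ : GP z B₂ A Q) : GP z B A (P * Q) := by
  have hPQ : P * Q = Q * P := sp_comm hcom hP.mem hQ.mem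
  refine ⟨sp_mul (sp_mono h1B hP.mem) (sp_mono h2B hQ.mem), ?_, ?_, ?_, ?_, ?_⟩
  · calc P * Q * (P * Q) = P * (Q * P) * Q := by simp only [mul_assoc]
      _ = (P * P) * (Q * Q) := by rw [← hPQ]; simp only [mul_assoc]
      _ = P * Q := by rw [hP.idem, hQ.idem]
  · rw [← mul_assoc, hP.neg, neg_mul]
  · intro a ha
    rw [← mul_assoc, hP.triv a ha]
  · intro b hb
    obtain ⟨x, hx, y, hy, rfl⟩ := hB b hb
    obtain ⟨c, hc⟩ := hP.prim x hx
    obtain ⟨d, hd⟩ := hQ.prim y hy
    refine ⟨c * d, ?_⟩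
    have h1 : Q * u x = u x * Q := (sp_comm hcom (u_mem hx) hQ.mem).symm
    have h2 : u y * P = P * u y := (sp_comm hcom hP.mem (u_mem hy)).symm
    calc P * Q * u (x * y) * (P * Q) = P * (Q * u x) * (u y * P) * Q := by
          rw [u, u, u, map_mul]; simp only [mul_assoc]
      _ = P * u x * (Q * P) * u y * Q := by rw [h1, h2]; simp only [mul_assoc]
      _ = (P * u x * P) * (Q * u y * Q) := by rw [← hPQ]; simp only [mul_assoc]
      _ = (c * d) • (P * Q) := by rw [hc, hd, smul_mul_smul_comm]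
  · rw [coeff_mul_one hzc hzA hz2 hint hQ.mem (hQ.coeff_neg hzc hz2) (fun a ha => hQ.coeff_triv a ha) hP.mem]
    apply mul_ne_zero _ hQ.ne
    have := Fintype.ofFinite A
    rw [finsum_eq_sum_of_fintype]
    have h1 : ∀ a : A, ((P.coeff (a : G) : ℂ) - P.coeff ((a : G) * z)) = 2 * P.coeff 1 := by
      intro a
      rw [hP.coeff_neg hzc hz2, hP.coeff_triv a a.2]
      ring
    rw [Finset.sum_congr rfl (fun a _ => h1 a), Finset.sum_const, nsmul_eq_mul]
    apply mul_ne_zero
    · rw [Nat.cast_ne_zero, Finset.card_univ, ← Nat.card_eq_fintype_card]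
      exact Nat.card_pos.ne'
    · exact mul_ne_zero two_ne_zero hP.ne

/-- conjugates of primitive idempotents -/
theorem GP.conj (hzc : ∀ g : G, z * g = g * z) {B : Subgroup G} {P : MonoidAlgebra ℂ G}
    (h : GP z B A P) (t : G) {B' : Subgroup G} (hB' : ∀ b, b ∈ B' ↔ t⁻¹ * b * t ∈ B)
    (hA : ∀ a ∈ A, t⁻¹ * a * t ∈ A) : GP z B' A (u t * P * u t⁻¹) := by
  have htt : u t⁻¹ * u t = (1 : MonoidAlgebra ℂ G) := by
    rw [u, u, ← map_mul, inv_mul_cancel, map_one]
  have htt' : u t * u t⁻¹ = (1 : MonoidAlgebra ℂ G) := by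
    rw [u, u, ← map_mul, mul_inv_cancel, map_one]
  have hmv : ∀ g : G, u g * u t = u t * u (t⁻¹ * g * t) := by
    intro g
    rw [u, u, u, ← map_mul, ← map_mul]
    congr 1
    group
  refine ⟨?_, ?_, ?_, ?_, ?_, ?_⟩
  · refine sp_induction (p := fun P => u t * P * u t⁻¹ ∈ sp B') ?_ ?_ ?_ ?_ h.mem
    · intro b hb
      rw [u, u, u, ← map_mul, ← map_mul]
      apply u_mem
      rw [hB']
      have : t⁻¹ * (t * b * t⁻¹) * t = b := by group
      rw [this]
      exact hb
    · simp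
    · intro x y hx hy
      rw [mul_add, add_mul]
      exact add_mem hx hy
    · intro c x hx
      rw [mul_smul_comm, smul_mul_assoc]
      exact Submodule.smul_mem _ _ hx
  · calc u t * P * u t⁻¹ * (u t * P * u t⁻¹) = u t * P * (u t⁻¹ * u t) * P * u t⁻¹ := by simp only [mul_assoc]
      _ = u t * (P * P) * u t⁻¹ := by rw [htt, mul_one]; simp only [mul_assoc]
      _ = _ := by rw [h.idem]
  · have h1 : t⁻¹ * z * t = z := by rw [mul_assoc, hzc, inv_mul_cancel_left]
    rw [← mul_assoc, ← mul_assoc, hmv, h1, mul_assoc (u t), h.neg, mul_neg, neg_mul]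
  · intro a ha
    rw [← mul_assoc, ← mul_assoc, hmv, mul_assoc (u t), h.triv _ (hA a ha)]
  · intro b hb
    obtain ⟨c, hc⟩ := h.prim _ ((hB' b).mp hb)
    refine ⟨c, ?_⟩
    calc u t * P * u t⁻¹ * u b * (u t * P * u t⁻¹) = u t * P * u t⁻¹ * (u b * u t) * P * u t⁻¹ := by
          simp only [mul_assoc]
      _ = u t * P * (u t⁻¹ * u t) * u (t⁻¹ * b * t) * P * u t⁻¹ := by rw [hmv]; simp only [mul_assoc]
      _ = u t * (P * u (t⁻¹ * b * t) * P) * u t⁻¹ := by rw [htt, mul_one]; simp only [mul_assoc]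
      _ = _ := by rw [hc, mul_smul_comm, smul_mul_assoc]
  · rw [coeff_mul_u, coeff_u_mul]
    have : t⁻¹ * (1 * t⁻¹⁻¹) = 1 := by group
    rw [this]
    exact h.ne

/-- **orthogonal products** -/
theorem good_mul (hzc : ∀ g : G, z * g = g * z) (hzA : z ∉ A) (hz2 : z * z = 1)
    (hint : ∀ x ∈ B₁, x ∈ B₂ → x ∈ A ∨ x * z ∈ A) (hcom : ∀ b ∈ B₁, ∀ c ∈ B₂, b * c = c * b)
    {B : Subgroup G} (h1B : B₁ ≤ B) (h2B : B₂ ≤ B) (hB : ∀ b ∈ B, ∃ x ∈ B₁, ∃ y ∈ B₂, b = x * y)
    {S : Subgroup G} (h1 : Good z B₁ A S) (h2 : Good z B₂ A S) : Good z B A S := by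
  obtain ⟨P, hP, hPS⟩ := h1
  obtain ⟨Q, hQ, hQS⟩ := h2
  refine ⟨P * Q, hP.mul hzc hzA hz2 hint hcom h1B h2B hB hQ, ?_⟩
  intro s hs
  rw [← mul_assoc, hPS s hs, mul_assoc, hQS s hs, mul_assoc]

/-- **swap** -/
theorem good_swap (hzc : ∀ g : G, z * g = g * z) (hzA : z ∉ A) (hz2 : z * z = 1)
    (hint : ∀ x ∈ B₁, x ∈ B₂ → x ∈ A ∨ x * z ∈ A) (hcom : ∀ b ∈ B₁, ∀ c ∈ B₂, b * c = c * b)
    {B : Subgroup G} (h1B : B₁ ≤ B) (h2B : B₂ ≤ B) (hB : ∀ b ∈ B, ∃ x ∈ B₁, ∃ y ∈ B₂, b = x * y)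
    {S M : Subgroup G} (t : G) (ht2 : t * t ∈ M) (hS : ∀ s ∈ S, s ∈ M ∨ s * t⁻¹ ∈ M)
    (hMt : ∀ m ∈ M, t⁻¹ * m * t ∈ M) (hA : ∀ a ∈ A, t⁻¹ * a * t ∈ A)
    (hB2 : ∀ b, b ∈ B₂ ↔ t⁻¹ * b * t ∈ B₁) (h1 : Good z B₁ A M) : Good z B A S := by
  obtain ⟨P, hP, hPS⟩ := h1
  have hQ : GP z B₂ A (u t * P * u t⁻¹) := hP.conj hzc t hB2 hA
  have hmv : ∀ g : G, u g * u t = u t * u (t⁻¹ * g * t) := by
    intro g
    rw [u, u, u, ← map_mul, ← map_mul]
    congr 1
    group
  have htt : u t⁻¹ * u t = (1 : MonoidAlgebra ℂ G) := by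
    rw [u, u, ← map_mul, inv_mul_cancel, map_one]
  have htt' : u t * u t⁻¹ = (1 : MonoidAlgebra ℂ G) := by
    rw [u, u, ← map_mul, mul_inv_cancel, map_one]
  have hPQ : P * (u t * P * u t⁻¹) = (u t * P * u t⁻¹) * P := sp_comm hcom hP.mem hQ.mem
  refine ⟨P * (u t * P * u t⁻¹), hP.mul hzc hzA hz2 hint hcom h1B h2B hB hQ, ?_⟩
  have hM : ∀ m ∈ M, u m * (P * (u t * P * u t⁻¹)) = (P * (u t * P * u t⁻¹)) * u m := by
    intro m hm
    have h1 : u m * (u t * P * u t⁻¹) = (u t * P * u t⁻¹) * u m := by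
      have h2 : u t⁻¹ * u m = u (t⁻¹ * m * t) * u t⁻¹ := by
        rw [u, u, u, ← map_mul, ← map_mul]
        congr 1
        group
      calc u m * (u t * P * u t⁻¹) = (u m * u t) * P * u t⁻¹ := by simp only [mul_assoc]
        _ = u t * (u (t⁻¹ * m * t) * P) * u t⁻¹ := by rw [hmv]; simp only [mul_assoc]
        _ = u t * P * (u (t⁻¹ * m * t) * u t⁻¹) := by rw [hPS _ (hMt m hm)]; simp only [mul_assoc]
        _ = (u t * P * u t⁻¹) * u m := by rw [← h2]; simp only [mul_assoc]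
    rw [← mul_assoc, hPS m hm, mul_assoc, h1, ← mul_assoc]
  have hT : u t * (P * (u t * P * u t⁻¹)) = (P * (u t * P * u t⁻¹)) * u t := by
    have h2 : u t * u t * P = P * (u t * u t) := by
      have := hPS (t * t) ht2
      rwa [u, map_mul] at this
    calc u t * (P * (u t * P * u t⁻¹)) = u t * P * (u t⁻¹ * u t) * (u t * P) * u t⁻¹ := by
          rw [htt, mul_one]; simp only [mul_assoc]
      _ = (u t * P * u t⁻¹) * (u t * u t * P) * u t⁻¹ := by simp only [mul_assoc]
      _ = (u t * P * u t⁻¹) * (P * (u t * u t)) * u t⁻¹ := by rw [h2]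
      _ = ((u t * P * u t⁻¹) * P) * u t * (u t * u t⁻¹) := by simp only [mul_assoc]
      _ = (P * (u t * P * u t⁻¹)) * u t := by rw [htt', mul_one, hPQ]
  intro s hs
  rcases hS s hs with h | h
  · exact hM s h
  · have h3 : u s = u (s * t⁻¹) * u t := by
      rw [u, u, u, ← map_mul]
      congr 1
      group
    rw [h3, mul_assoc, hT, ← mul_assoc, hM _ h, mul_assoc]

/-- **isotropic reduction** -/
theorem good_iso (hzc : ∀ g : G, z * g = g * z) {B B' A' : Subgroup G} (hAA : A ≤ A')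
    (hBB : B' ≤ B)
    (hA'c : ∀ a ∈ A', ∀ b ∈ B', a * b = b * a)
    (hout : ∀ b ∈ B, b ∉ B' → ∃ a ∈ A', b * a = z * (a * b))
    {S : Subgroup G} (h1 : Good z B' A' S) : Good z B A S := by
  obtain ⟨P, hP, hPS⟩ := h1
  refine ⟨P, ⟨sp_mono hBB hP.mem, hP.idem, hP.neg, fun a ha => hP.triv a (hAA ha), ?_, hP.ne⟩, hPS⟩
  intro b hb
  by_cases hbB : b ∈ B'
  · exact hP.prim b hbB
  · obtain ⟨a, ha, hab⟩ := hout b hb hbB
    refine ⟨0, ?_⟩
    rw [zero_smul]
    have hPa : P * u a = P := by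
      rw [← sp_comm hA'c (u_mem ha) hP.mem, hP.triv a ha]
    have h2 : P * u b * P = - (P * u b * P) := by
      calc P * u b * P = P * u b * (u a * P) := by rw [hP.triv a ha]
        _ = P * u (b * a) * P := by rw [u, u, u, map_mul]; simp only [mul_assoc]
        _ = P * (u z * (u a * u b)) * P := by rw [hab, u, u, u, u, map_mul, map_mul]
        _ = (u z * P) * u a * u b * P := by
            have hzP : u z * P = P * u z := by
              refine sp_induction (p := fun P => u z * P = P * u z) ?_ ?_ ?_ ?_ hP.mem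
              · intro b hb
                rw [u, u, ← map_mul, ← map_mul, hzc]
              · simp
              · intro x y hx hy; rw [mul_add, add_mul, hx, hy]
              · intro c x hx; rw [mul_smul_comm, smul_mul_assoc, hx]
            rw [hzP]; simp only [mul_assoc]
        _ = - (P * u b * P) := by
            rw [hP.neg, neg_mul, neg_mul, neg_mul, hPa]
    have h3 : (2 : ℂ) • (P * u b * P) = 0 := by
      rw [two_smul]
      nth_rewrite 1 [h2]
      exact neg_add_cancel _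
    rcases smul_eq_zero.mp h3 with h | h
    · norm_num at h
    · exact h

end product

end Cfsg.Agent.Lib.ExSpA
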