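import Cfsg.Agent.Lib.ExSpA
import Cfsg.Agent.Lib.CharBasic2
import Cfsg.Agent.Lib.CharCentral
import Cfsg.Agent.Lib.ProjRep

set_option autoImplicit false
set_option linter.unusedSectionVars false

/-!
# Invariant primitive idempotents for cyclic groups of automorphisms (helper80)
-/

namespace Cfsg.Agent.Lib.ExSpB

open Subgroup Module
open scoped ComplexConjugate
open Cfsg Cfsg.Agent.Lib.CharBasic

section rep

variable {C : Type*} [Group C] [Finite C]

theorem exists_irr_ne {Q : Type*} [Group Q] [Finite Q] {z : Q} (hz1 : z ≠ 1) :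
    ∃ χ : IrrCharacter Q, (χ : Q → ℂ) z ≠ (χ : Q → ℂ) 1 := by
  classical
  have := Fintype.ofFinite Q
  by_contra hcon
  push Not at hcon
  have h1 := column_orthogonality (z : Q) 1
  rw [if_neg (by
    intro hc'
    exact hz1 (isConj_one_right.mp hc'.symm))] at h1
  have h2 := column_orthogonality (1 : Q) 1
  rw [if_pos (IsConj.refl 1)] at h2
  have h3 : ∑ χ : IrrCharacter Q, (χ : Q → ℂ) z * conj ((χ : Q → ℂ) 1) =
      ∑ χ : IrrCharacter Q, (χ : Q → ℂ) 1 * conj ((χ : Q → ℂ) 1) := by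
    apply Finset.sum_congr rfl
    intro χ _
    rw [hcon χ]
  rw [h1, h2] at h3
  have h4 : (Nat.card (Subgroup.centralizer ({1} : Set Q)) : ℂ) ≠ 0 := by
    exact_mod_cast Nat.card_pos.ne'
  exact h4 h3.symm

theorem exists_rep (A : Subgroup C) [A.Normal] (z : C) (hzc : ∀ g : C, z * g = g * z) (hz2 : z * z = 1)
    (hzA : z ∉ A) : ∃ (d : ℕ) (ρ : Representation ℂ C (Fin d → ℂ)), ρ.IsIrreducible ∧ (∀ a ∈ A, ρ a = 1) ∧
      ∀ v, ρ z v = - v := by
  have hz1 : (QuotientGroup.mk z : C ⧸ A) ≠ 1 := by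
    rw [Ne, QuotientGroup.eq_one_iff]; exact hzA
  obtain ⟨⟨χ, d, ρ, hρ, rfl⟩, hχ⟩ := exists_irr_ne hz1
  refine ⟨d, ρ.comp (QuotientGroup.mk' A),
    isIrreducible_comp_of_surjective ρ _ (QuotientGroup.mk'_surjective A) hρ, ?_, ?_⟩
  · intro a ha
    have : QuotientGroup.mk' A a = 1 := by
      rw [QuotientGroup.mk'_apply, QuotientGroup.eq_one_iff]; exact ha
    rw [MonoidHom.comp_apply, this, map_one]
  · have hirr := hρ
    obtain ⟨c, hc⟩ := CharCentral.exists_scalar_of_commute ρ (ρ (QuotientGroup.mk z)) (by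
      intro g v
      obtain ⟨g, rfl⟩ := QuotientGroup.mk_surjective g
      have h1 : ρ (QuotientGroup.mk z) * ρ (QuotientGroup.mk g) = ρ (QuotientGroup.mk g) * ρ (QuotientGroup.mk z) := by
        rw [← map_mul, ← map_mul, ← QuotientGroup.mk_mul, ← QuotientGroup.mk_mul, hzc]
      exact congrArg (fun f => f v) h1)
    have hnt : Nontrivial (Fin d → ℂ) := CharCentral.nontrivial_of_irreducible ρ
    have hc2 : c * c = 1 := by
      have h1 : ρ (QuotientGroup.mk z) * ρ (QuotientGroup.mk z) = 1 := by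
        rw [← map_mul, ← QuotientGroup.mk_mul, hz2, QuotientGroup.mk_one, map_one]
      rw [hc] at h1
      obtain ⟨v, hv⟩ := exists_ne (0 : Fin d → ℂ)
      have h2 := congrArg (fun f => f v) h1
      simp only [Module.End.mul_apply, LinearMap.smul_apply, LinearMap.id_apply, smul_smul, Module.End.one_apply] at h2
      have h3 : (c * c - 1) • v = 0 := by rw [sub_smul, h2, one_smul, sub_self]
      rcases smul_eq_zero.mp h3 with h | h
      · exact sub_eq_zero.mp h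
      · exact absurd h hv
    have hc1 : c ≠ 1 := by
      rintro rfl
      apply hχ
      change ρ.character _ = ρ.character _
      have h1 : ρ (QuotientGroup.mk z) = ρ 1 := by
        rw [hc, map_one, one_smul]; rfl
      change LinearMap.trace ℂ _ (ρ _) = LinearMap.trace ℂ _ (ρ _)
      rw [h1]
    have hcm : c = -1 := by
      have h1 : (c - 1) * (c + 1) = 0 := by
        have : (c - 1) * (c + 1) = c * c - 1 := by ring
        rw [this, hc2, sub_self]
      rcases mul_eq_zero.mp h1 with h | h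
      · exact absurd (sub_eq_zero.mp h) hc1
      · exact eq_neg_of_add_eq_zero_left h
    intro v
    rw [MonoidHom.comp_apply, QuotientGroup.mk'_apply, hc, hcm, LinearMap.smul_apply, neg_smul, one_smul]
    rfl

variable {d : ℕ} {ρ : Representation ℂ C (Fin d → ℂ)} {A : Subgroup C} {z : C}

/-- the character vanishes off `A⟨z⟩` -/
theorem char_eq_zero (hz : ∀ v, ρ z v = - v) {c x : C} (h : c * x = z * (x * c)) : ρ.character c = 0 := by
  have h1 : ρ.character (x * c * x⁻¹) = ρ.character c := Representation.char_conj ρ c x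
  have h2 : c = z * (x * c * x⁻¹) := by
    calc c = c * x * x⁻¹ := by group
      _ = z * (x * c * x⁻¹) := by rw [h]; group
  have h3 : ρ.character (z * (x * c * x⁻¹)) = - ρ.character (x * c * x⁻¹) := by
    change LinearMap.trace ℂ _ (ρ _) = - LinearMap.trace ℂ _ (ρ _)
    have h4 : ρ (z * (x * c * x⁻¹)) = - ρ (x * c * x⁻¹) := by
      rw [map_mul]
      apply LinearMap.ext
      intro v
      exact hz _
    rw [h4, map_neg]
  rw [← h2, h1] at h3
  have h4 : (2 : ℂ) * ρ.character c = 0 := by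
    rw [two_mul]
    nth_rewrite 1 [h3]
    exact neg_add_cancel _
  rcases mul_eq_zero.mp h4 with h | h
  · norm_num at h
  · exact h

/-- the intertwiner -/
theorem exists_T (hρ : ρ.IsIrreducible) (hA : ∀ a ∈ A, ρ a = 1) (hz : ∀ v, ρ z v = - v) (hz2 : z * z = 1)
    (hcen : ∀ c : C, c ∉ A → c * z ∉ A → ∃ x, c * x = z * (x * c))
    (f : C ≃* C) (hfA : ∀ a, f a ∈ A ↔ a ∈ A) (hfz : f z = z) :
    ∃ T : (Fin d → ℂ) ≃ₗ[ℂ] (Fin d → ℂ), ∀ c v, T (ρ c v) = ρ (f c) (T v) := by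
  have := Fintype.ofFinite C
  let ρ' : Representation ℂ C (Fin d → ℂ) := ρ.comp f.toMonoidHom
  have hchar : ρ.character = ρ'.character := by
    funext c
    change LinearMap.trace ℂ _ (ρ c) = LinearMap.trace ℂ _ (ρ (f c))
    by_cases h1 : c ∈ A
    · rw [hA c h1, hA (f c) ((hfA c).mpr h1)]
    · by_cases h2 : c * z ∈ A
      · have h3 : ρ c = ρ z := by
          have : c = (c * z) * z := by rw [mul_assoc, hz2, mul_one]
          rw [this, map_mul, hA _ h2, one_mul]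
        have h4 : ρ (f c) = ρ z := by
          have : f c = f (c * z) * z := by
            rw [map_mul, hfz, mul_assoc, hz2, mul_one]
          rw [this, map_mul, hA _ ((hfA _).mpr h2), one_mul]
        rw [h3, h4]
      · obtain ⟨x, hx⟩ := hcen c h1 h2
        have h3 : f c * f x = z * (f x * f c) := by
          rw [← map_mul, hx, map_mul, hfz, map_mul]
        have h4 := char_eq_zero hz hx
        have h5 := char_eq_zero hz h3
        change ρ.character c = ρ.character (f c)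
        rw [h4, h5]
  obtain ⟨e⟩ := equiv_of_irr_character_eq ρ ρ' hρ
    (isIrreducible_comp_of_surjective ρ _ f.surjective hρ) hchar
  refine ⟨e.toLinearEquiv, fun c v => ?_⟩
  exact congrArg (fun g => g v) (e.toIntertwiningMap.isIntertwining' c)

/-- invariant vector and functional -/
theorem exists_vec (hρ : ρ.IsIrreducible) (f : C ≃* C)
    (T : (Fin d → ℂ) ≃ₗ[ℂ] (Fin d → ℂ)) (hT : ∀ c v, T (ρ c v) = ρ (f c) (T v)) :
    ∃ (μ : ℂ) (v : Fin d → ℂ) (g : (Fin d → ℂ) →ₗ[ℂ] ℂ), μ ≠ 0 ∧ T v = μ • v ∧ (∀ w, g (T w) = μ * g w) ∧ g v = 1 := by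
  have hirr := hρ
  have hnt : Nontrivial (Fin d → ℂ) := CharCentral.nontrivial_of_irreducible ρ
  obtain ⟨μ, hμ⟩ := Module.End.exists_eigenvalue (T : (Fin d → ℂ) →ₗ[ℂ] (Fin d → ℂ))
  obtain ⟨v, hv⟩ := hμ.exists_hasEigenvector
  have hTv : T v = μ • v := hv.apply_eq_smul
  have hv0 : v ≠ 0 := hv.2
  have hμ0 : μ ≠ 0 := by
    rintro rfl
    rw [zero_smul] at hTv
    exact hv0 (T.map_eq_zero_iff.mp hTv)
  -- powers of `T`
  have hTn : ∀ (n : ℕ) (c : C) (w : Fin d → ℂ), (T^n) (ρ c w) = ρ ((f ^ n : MulAut C) c) ((T^n) w) := by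
    intro n
    induction n with
    | zero => intro c w; rfl
    | succ n ih =>
      intro c w
      rw [pow_succ', pow_succ']
      change T ((T^n) (ρ c w)) = ρ (f ((f ^ n : MulAut C) c)) (T ((T^n) w))
      rw [ih, hT]
  have hTv' : ∀ n : ℕ, (T^n) v = μ ^ n • v := by
    intro n
    induction n with
    | zero => rw [pow_zero, pow_zero, one_smul]; rfl
    | succ n ih =>
      rw [pow_succ']
      change T ((T^n) v) = _
      rw [ih, map_smul, hTv, smul_smul, pow_succ]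
  set m := orderOf (f : MulAut C) with hm
  have hm0 : 0 < m := orderOf_pos _
  obtain ⟨c₀, hc₀⟩ := CharCentral.exists_scalar_of_commute ρ ((T ^ m : (Fin d → ℂ) ≃ₗ[ℂ] (Fin d → ℂ)) : (Fin d → ℂ) →ₗ[ℂ] (Fin d → ℂ)) (by
    intro c w
    have h1 := hTn m c w
    have h2 : (f : MulAut C) ^ m = 1 := pow_orderOf_eq_one _
    rw [h2] at h1
    exact h1)
  have hc₀' : ∀ w, (T ^ m) w = c₀ • w := by
    intro w
    exact congrArg (fun g => g w) hc₀
  have hcμ : c₀ = μ ^ m := by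
    have h1 : (c₀ - μ ^ m) • v = 0 := by
      rw [sub_smul, ← hc₀', hTv', sub_self]
    rcases smul_eq_zero.mp h1 with h | h
    · exact sub_eq_zero.mp h
    · exact absurd h hv0
  obtain ⟨i, hi⟩ := Function.ne_iff.mp hv0
  have hi' : v i ≠ 0 := hi
  let g₀ : (Fin d → ℂ) →ₗ[ℂ] ℂ := (v i)⁻¹ • LinearMap.proj i
  have hg₀ : g₀ v = 1 := by
    change (v i)⁻¹ * v i = 1
    exact inv_mul_cancel₀ hi'
  let g : (Fin d → ℂ) →ₗ[ℂ] ℂ := (m : ℂ)⁻¹ • ∑ j ∈ Finset.range m,
    (μ ^ j)⁻¹ • (g₀ ∘ₗ ((T ^ j : (Fin d → ℂ) ≃ₗ[ℂ] (Fin d → ℂ)) : (Fin d → ℂ) →ₗ[ℂ] (Fin d → ℂ)))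
  have hg : ∀ w, g w = (m : ℂ)⁻¹ * ∑ j ∈ Finset.range m, (μ ^ j)⁻¹ * g₀ ((T ^ j) w) := by
    intro w
    simp only [g, LinearMap.smul_apply, LinearMap.sum_apply, LinearMap.comp_apply, smul_eq_mul]
    rfl
  have hm1 : (m : ℂ) ≠ 0 := by exact_mod_cast hm0.ne'
  refine ⟨μ, v, g, hμ0, hTv, ?_, ?_⟩
  · intro w
    rw [hg, hg]
    have h1 : ∀ j, (μ ^ j)⁻¹ * g₀ ((T ^ j) (T w)) = μ * ((μ ^ (j + 1))⁻¹ * g₀ ((T ^ (j + 1)) w)) := by
      intro j
      rw [pow_succ T j]
      change (μ ^ j)⁻¹ * g₀ ((T ^ j) (T w)) = μ * ((μ ^ (j + 1))⁻¹ * g₀ ((T ^ j) (T w)))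
      rw [pow_succ]
      field_simp
    rw [Finset.sum_congr rfl (fun j _ => h1 j), ← Finset.mul_sum]
    have h2 : ∑ j ∈ Finset.range m, ((μ ^ (j + 1))⁻¹ * g₀ ((T ^ (j + 1)) w)) =
        ∑ j ∈ Finset.range m, ((μ ^ j)⁻¹ * g₀ ((T ^ j) w)) := by
      have h3 := Finset.sum_range_succ (fun j => (μ ^ j)⁻¹ * g₀ ((T ^ j) w)) m
      have h4 := Finset.sum_range_succ' (fun j => (μ ^ j)⁻¹ * g₀ ((T ^ j) w)) m
      rw [h3] at h4
      have h5 : (μ ^ m)⁻¹ * g₀ ((T ^ m) w) = (μ ^ 0)⁻¹ * g₀ ((T ^ 0) w) := by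
        rw [hc₀', hcμ, map_smul, smul_eq_mul, ← mul_assoc, inv_mul_cancel₀ (pow_ne_zero _ hμ0), one_mul,
          pow_zero, inv_one, one_mul, pow_zero]
        rfl
      rw [h5] at h4
      exact (add_right_cancel h4).symm
    rw [h2]
    ring
  · rw [hg]
    have h1 : ∀ j ∈ Finset.range m, (μ ^ j)⁻¹ * g₀ ((T ^ j) v) = 1 := by
      intro j _
      rw [hTv', map_smul, hg₀, smul_eq_mul, mul_one, inv_mul_cancel₀ (pow_ne_zero _ hμ0)]
    rw [Finset.sum_congr rfl h1, Finset.sum_const, Finset.card_range, nsmul_eq_mul, mul_one,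
      inv_mul_cancel₀ hm1]

/-- Schur relation for matrix coefficients -/
theorem schur [Fintype C] (hρ : ρ.IsIrreducible) (g : (Fin d → ℂ) →ₗ[ℂ] ℂ) (x w : Fin d → ℂ) :
    ∑ c : C, g (ρ c⁻¹ x) • ρ c w = ((Nat.card C : ℂ) / d * g w) • x := by
  have hirr := hρ
  let X : (Fin d → ℂ) →ₗ[ℂ] (Fin d → ℂ) := g.smulRight w
  let Y : (Fin d → ℂ) →ₗ[ℂ] (Fin d → ℂ) := ∑ c : C, ρ c * X * ρ c⁻¹
  obtain ⟨y, hy⟩ := CharCentral.exists_scalar_of_commute ρ Y (by
    intro h v
    have h1 : Y * ρ h = ρ h * Y := by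
      simp only [Y, Finset.sum_mul, Finset.mul_sum]
      rw [← Equiv.sum_comp (Equiv.mulLeft h) (fun c : C => ρ c * X * ρ c⁻¹ * ρ h)]
      apply Finset.sum_congr rfl
      intro c _
      simp only [Equiv.coe_mulLeft, mul_inv_rev, map_mul]
      have h2 : ρ h⁻¹ * ρ h = 1 := by rw [← map_mul, inv_mul_cancel, map_one]
      calc ρ h * ρ c * X * (ρ c⁻¹ * ρ h⁻¹) * ρ h = ρ h * (ρ c * X * ρ c⁻¹) * (ρ h⁻¹ * ρ h) := by
            simp only [mul_assoc]
        _ = _ := by rw [h2, mul_one]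
    exact congrArg (fun f => f v) h1)
  have htrX : LinearMap.trace ℂ _ X = g w := by
    simp only [X]
    exact LinearMap.trace_smulRight g w
  have htr : LinearMap.trace ℂ _ Y = (Nat.card C : ℂ) * g w := by
    simp only [Y, map_sum]
    have h1 : ∀ c : C, LinearMap.trace ℂ _ (ρ c * X * ρ c⁻¹) = g w := by
      intro c
      rw [LinearMap.trace_mul_comm, ← mul_assoc, ← map_mul, inv_mul_cancel, map_one, one_mul, htrX]
    rw [Finset.sum_congr rfl (fun c _ => h1 c), Finset.sum_const, nsmul_eq_mul, Finset.card_univ,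
      ← Nat.card_eq_fintype_card]
  have hd : (d : ℂ) ≠ 0 := by
    have := CharCentral.finrank_ne_zero_of_irreducible ρ
    simpa using this
  have hyv : y = (Nat.card C : ℂ) / d * g w := by
    rw [hy, map_smul, smul_eq_mul] at htr
    have h1 : LinearMap.trace ℂ (Fin d → ℂ) LinearMap.id = (d : ℂ) := by
      rw [LinearMap.trace_id]; simp
    rw [h1] at htr
    field_simp
    rw [← htr]
  have h3 := congrArg (fun f => f x) hy
  simp only [Y, LinearMap.sum_apply, LinearMap.smul_apply, LinearMap.id_apply] at h3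
  rw [← hyv, ← h3]
  apply Finset.sum_congr rfl
  intro c _
  simp only [X, Module.End.mul_apply, LinearMap.smulRight_apply, map_smul]

end rep

section build

open Cfsg.Agent.Lib.ExSpA

variable {G : Type*} [Group G] [Finite G] {B A : Subgroup G} {z : G} {d : ℕ}

/-- the coefficient function -/
noncomputable def pf (ρ : Representation ℂ B (Fin d → ℂ)) (g : (Fin d → ℂ) →ₗ[ℂ] ℂ) (v : Fin d → ℂ) (b : B) : ℂ :=
  (d : ℂ) / Nat.card B * g (ρ b⁻¹ v)

/-- the idempotent -/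
noncomputable def PP [Fintype B] (ρ : Representation ℂ B (Fin d → ℂ)) (g : (Fin d → ℂ) →ₗ[ℂ] ℂ) (v : Fin d → ℂ) :
    MonoidAlgebra ℂ G := ∑ b : B, pf ρ g v b • u (b : G)

theorem pf_conv [Fintype B] {ρ : Representation ℂ B (Fin d → ℂ)} (hρ : ρ.IsIrreducible)
    (g : (Fin d → ℂ) →ₗ[ℂ] ℂ) (v : Fin d → ℂ) (b w : B) :
    ∑ x : B, pf ρ g v x * pf ρ g v ((x * b)⁻¹ * w) = g (ρ b v) * pf ρ g v w := by
  have hirr := hρ
  have hd : (d : ℂ) ≠ 0 := by
    have := CharCentral.finrank_ne_zero_of_irreducible ρ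
    simpa using this
  have hB : (Nat.card B : ℂ) ≠ 0 := by exact_mod_cast Nat.card_pos.ne'
  have h1 : ∀ x : B, pf ρ g v x * pf ρ g v ((x * b)⁻¹ * w) =
      ((d : ℂ) / Nat.card B) ^ 2 * g (ρ w⁻¹ (g (ρ x⁻¹ v) • ρ x (ρ b v))) := by
    intro x
    simp only [pf]
    have h2 : ((x * b)⁻¹ * w)⁻¹ = w⁻¹ * (x * b) := by group
    rw [h2, map_mul, map_mul, map_smul, map_smul, smul_eq_mul]
    simp only [Module.End.mul_apply]
    ring
  rw [Finset.sum_congr rfl (fun x _ => h1 x), ← Finset.mul_sum, ← map_sum, ← map_sum, schur hρ, map_smul, map_smul,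
    smul_eq_mul]
  simp only [pf]
  field_simp

theorem PP_prim [Fintype B] {ρ : Representation ℂ B (Fin d → ℂ)} (hρ : ρ.IsIrreducible)
    (g : (Fin d → ℂ) →ₗ[ℂ] ℂ) (v : Fin d → ℂ) (b : B) :
    PP ρ g v * u (b : G) * PP ρ g v = g (ρ b v) • PP ρ g v := by
  have h1 : PP ρ g v * u (b : G) * PP ρ g v =
      ∑ x : B, ∑ y : B, (pf ρ g v x * pf ρ g v y) • u ((x : G) * b * y) := by
    simp only [PP, Finset.sum_mul, Finset.mul_sum]
    rw [Finset.sum_comm]
    apply Finset.sum_congr rfl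
    intro x _
    apply Finset.sum_congr rfl
    intro y _
    rw [smul_mul_assoc, smul_mul_smul_comm, u, u, u, u, map_mul, map_mul]
  rw [h1]
  have h2 : ∀ x : B, ∑ y : B, (pf ρ g v x * pf ρ g v y) • u ((x : G) * b * y) =
      ∑ w : B, (pf ρ g v x * pf ρ g v ((x * b)⁻¹ * w)) • (u (w : G) : MonoidAlgebra ℂ G) := by
    intro x
    rw [← Equiv.sum_comp (Equiv.mulLeft (x * b)) (fun w : B => (pf ρ g v x * pf ρ g v ((x * b)⁻¹ * w)) • (u (w : G) : MonoidAlgebra ℂ G))]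
    apply Finset.sum_congr rfl
    intro y _
    rw [Equiv.coe_mulLeft, inv_mul_cancel_left]
    rfl
  rw [Finset.sum_congr rfl (fun x _ => h2 x), Finset.sum_comm]
  have h3 : ∀ w : B, ∑ x : B, (pf ρ g v x * pf ρ g v ((x * b)⁻¹ * w)) • (u (w : G) : MonoidAlgebra ℂ G) =
      g (ρ b v) • (pf ρ g v w • u (w : G)) := by
    intro w
    rw [← Finset.sum_smul, pf_conv hρ, smul_smul]
  rw [Finset.sum_congr rfl (fun x _ => h3 x), ← Finset.smul_sum]
  rfl

theorem PP_left [Fintype B] (ρ : Representation ℂ B (Fin d → ℂ))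
    (g : (Fin d → ℂ) →ₗ[ℂ] ℂ) (v : Fin d → ℂ) (a : B) :
    u (a : G) * PP ρ g v = ∑ b : B, pf ρ g v (a⁻¹ * b) • (u (b : G) : MonoidAlgebra ℂ G) := by
  rw [← Equiv.sum_comp (Equiv.mulLeft a) (fun b : B => pf ρ g v (a⁻¹ * b) • (u (b : G) : MonoidAlgebra ℂ G))]
  rw [PP, Finset.mul_sum]
  apply Finset.sum_congr rfl
  intro b _
  rw [mul_smul_comm, Equiv.coe_mulLeft, inv_mul_cancel_left, u, u, ← map_mul]
  rfl

theorem PP_GP [Fintype B] {ρ : Representation ℂ B (Fin d → ℂ)} (hρ : ρ.IsIrreducible)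
    (hAB : A ≤ B) (hzB : z ∈ B)
    (hA : ∀ a : B, (a : G) ∈ A → ρ a = 1) (hz : ∀ v, ρ ⟨z, hzB⟩ v = - v) (hz2 : z * z = 1)
    (g : (Fin d → ℂ) →ₗ[ℂ] ℂ) (v : Fin d → ℂ) (hgv : g v = 1) : GP z B A (PP ρ g v) := by
  classical
  have hirr := hρ
  have hd : (d : ℂ) ≠ 0 := by
    have := CharCentral.finrank_ne_zero_of_irreducible ρ
    simpa using this
  have hB : (Nat.card B : ℂ) ≠ 0 := by exact_mod_cast Nat.card_pos.ne'
  refine ⟨?_, ?_, ?_, ?_, ?_, ?_⟩
  · apply Submodule.sum_mem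
    intro b _
    exact Submodule.smul_mem _ _ (u_mem b.2)
  · have h := PP_prim (G := G) hρ g v 1
    rw [map_one, Module.End.one_apply, hgv, one_smul] at h
    rw [OneMemClass.coe_one, u, map_one, mul_one] at h
    exact h
  · have h := PP_left (G := G) ρ g v ⟨z, hzB⟩
    rw [h, PP, ← Finset.sum_neg_distrib]
    apply Finset.sum_congr rfl
    intro b _
    rw [← neg_smul]
    congr 1
    simp only [pf]
    have h2 : ((⟨z, hzB⟩ : B)⁻¹ * b)⁻¹ = b⁻¹ * ⟨z, hzB⟩ := by group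
    rw [h2, map_mul, Module.End.mul_apply, hz, map_neg, map_neg]
    ring
  · intro a ha
    have h := PP_left (G := G) ρ g v ⟨a, hAB ha⟩
    rw [h, PP]
    apply Finset.sum_congr rfl
    intro b _
    congr 1
    simp only [pf]
    have h2 : ((⟨a, hAB ha⟩ : B)⁻¹ * b)⁻¹ = b⁻¹ * ⟨a, hAB ha⟩ := by group
    rw [h2, map_mul, hA ⟨a, hAB ha⟩ ha, mul_one]
  · intro b hb
    exact ⟨_, PP_prim hρ g v ⟨b, hb⟩⟩
  · have h1 : (PP ρ g v : MonoidAlgebra ℂ G).coeff 1 = pf ρ g v 1 := by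
      rw [PP, MonoidAlgebra.coeff_sum, Finset.sum_apply']
      rw [Finset.sum_eq_single (1 : B)]
      · rw [MonoidAlgebra.coeff_smul_apply, coeff_u, if_pos (show ((1 : B) : G) = 1 from rfl), smul_eq_mul, mul_one]
      · intro b _ hb
        rw [MonoidAlgebra.coeff_smul_apply, coeff_u, if_neg, smul_zero]
        intro h
        exact hb (Subtype.ext h)
      · intro h; exact absurd (Finset.mem_univ _) h
    rw [h1]
    simp only [pf, inv_one, map_one, Module.End.one_apply, hgv, mul_one]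
    exact div_ne_zero hd hB

theorem PP_comm [Fintype B] (ρ : Representation ℂ B (Fin d → ℂ))
    (g : (Fin d → ℂ) →ₗ[ℂ] ℂ) (v : Fin d → ℂ) (s : G) (hs : ∀ b, s⁻¹ * b * s ∈ B ↔ b ∈ B)
    (h : ∀ b : B, pf ρ g v ⟨s⁻¹ * b * s, (hs b).mpr b.2⟩ = pf ρ g v b) :
    u s * PP ρ g v = PP ρ g v * u s := by
  let e : B ≃ B :=
    { toFun := fun b => ⟨s⁻¹ * b * s, (hs b).mpr b.2⟩
      invFun := fun b => ⟨s * b * s⁻¹, (hs _).mp (by
        have : s⁻¹ * (s * (b : G) * s⁻¹) * s = b := by group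
        rw [this]; exact b.2)⟩
      left_inv := fun b => Subtype.ext (by change s * (s⁻¹ * (b : G) * s) * s⁻¹ = b; group)
      right_inv := fun b => Subtype.ext (by change s⁻¹ * (s * (b : G) * s⁻¹) * s = b; group) }
  rw [PP, Finset.mul_sum, Finset.sum_mul, ← Equiv.sum_comp e]
  apply Finset.sum_congr rfl
  intro b _
  have h1 : pf ρ g v (e b) = pf ρ g v b := h b
  rw [h1, mul_smul_comm, smul_mul_assoc, u, u, u, ← map_mul, ← map_mul]
  congr 2
  change s * (s⁻¹ * (b : G) * s) = (b : G) * s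
  group

/-- **The cyclic case.** -/
theorem good_cyclic {S : Subgroup G} (hzc : ∀ g : G, z * g = g * z) (hz2 : z * z = 1) (hzB : z ∈ B) (hzA : z ∉ A)
    (hAB : A ≤ B) (hAc : ∀ a ∈ A, ∀ b ∈ B, a * b = b * a)
    (hcen : ∀ b ∈ B, b ∉ A → b * z ∉ A → ∃ c ∈ B, b * c = z * (c * b))
    (t : G) (htB : ∀ b, t * b * t⁻¹ ∈ B ↔ b ∈ B) (htA : ∀ b, t * b * t⁻¹ ∈ A ↔ b ∈ A)
    (hS : ∀ s ∈ S, ∃ (i : ℤ) (r : G), s = t ^ i * r ∧ ∀ b ∈ B, r⁻¹ * b * r * b⁻¹ ∈ A) : Good z B A S := by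
  classical
  have := Fintype.ofFinite B
  have hAn : (A.subgroupOf B).Normal := by
    constructor
    rintro ⟨a, ha⟩ ha' ⟨b, hb⟩
    rw [mem_subgroupOf] at ha' ⊢
    change b * a * b⁻¹ ∈ A
    rw [← hAc a ha' b hb, mul_inv_cancel_right]
    exact ha'
  obtain ⟨d, ρ, hρ, hA, hz⟩ := exists_rep (A.subgroupOf B) (⟨z, hzB⟩ : B) (fun g => Subtype.ext (hzc g))
    (Subtype.ext hz2) (by rw [mem_subgroupOf]; exact hzA)
  let f : B ≃* B :=
    { toFun := fun b => ⟨t * b * t⁻¹, (htB b).mpr b.2⟩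
      invFun := fun b => ⟨t⁻¹ * b * t, (htB _).mp (by
        have : t * (t⁻¹ * (b : G) * t) * t⁻¹ = b := by group
        rw [this]; exact b.2)⟩
      left_inv := fun b => Subtype.ext (by change t⁻¹ * (t * (b : G) * t⁻¹) * t = b; group)
      right_inv := fun b => Subtype.ext (by change t * (t⁻¹ * (b : G) * t) * t⁻¹ = b; group)
      map_mul' := fun b c => Subtype.ext (by
        change t * ((b : G) * c) * t⁻¹ = t * b * t⁻¹ * (t * c * t⁻¹)
        group) }
  obtain ⟨T, hT⟩ := exists_T (A := A.subgroupOf B) hρ hA hz (Subtype.ext hz2) (by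
    rintro ⟨b, hb⟩ h1 h2
    rw [mem_subgroupOf] at h1 h2
    obtain ⟨c, hc, hbc⟩ := hcen b hb h1 h2
    exact ⟨⟨c, hc⟩, Subtype.ext hbc⟩) f (by
    rintro ⟨b, hb⟩
    rw [mem_subgroupOf, mem_subgroupOf]
    exact htA b) (by
    apply Subtype.ext
    change t * z * t⁻¹ = z
    rw [← hzc, mul_inv_cancel_right])
  obtain ⟨μ, v, g, hμ, hTv, hg, hgv⟩ := exists_vec hρ f T hT
  have hGP : GP z B A (PP ρ g v) := PP_GP hρ hAB hzB (fun a ha => hA a (mem_subgroupOf.mpr ha)) hz hz2 g v hgv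
  refine ⟨PP ρ g v, hGP, ?_⟩
  -- `t` commutes
  have ht : u t * PP ρ g v = PP ρ g v * u t := by
    have hs : ∀ b, t⁻¹ * b * t ∈ B ↔ b ∈ B := by
      intro b
      rw [← htB (t⁻¹ * b * t)]
      have : t * (t⁻¹ * b * t) * t⁻¹ = b := by group
      rw [this]
    apply PP_comm ρ g v t hs
    intro b
    simp only [pf]
    congr 1
    set c : B := ⟨t⁻¹ * b * t, (hs b).mpr b.2⟩ with hc
    have hfc : f c⁻¹ = b⁻¹ := by
      rw [map_inv]
      congr 1
      apply Subtype.ext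
      change t * (t⁻¹ * (b : G) * t) * t⁻¹ = b
      group
    have h1 := hT c⁻¹ v
    rw [hfc, hTv, map_smul] at h1
    have h2 := congrArg g h1
    rw [hg, map_smul, smul_eq_mul] at h2
    exact mul_left_cancel₀ hμ h2
  have hti : ∀ i : ℤ, u (t ^ i) * PP ρ g v = PP ρ g v * u (t ^ i) := by
    have hinv : u t⁻¹ * PP ρ g v = PP ρ g v * u t⁻¹ := by
      have h1 : u t⁻¹ * u t = (1 : MonoidAlgebra ℂ G) := by
        rw [u, u, ← map_mul, inv_mul_cancel, map_one]
      have h2 : u t * u t⁻¹ = (1 : MonoidAlgebra ℂ G) := by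
        rw [u, u, ← map_mul, mul_inv_cancel, map_one]
      calc u t⁻¹ * PP ρ g v = u t⁻¹ * (PP ρ g v * u t) * u t⁻¹ := by
            rw [mul_assoc, mul_assoc, h2, mul_one]
        _ = (u t⁻¹ * u t) * PP ρ g v * u t⁻¹ := by rw [← ht]; simp only [mul_assoc]
        _ = _ := by rw [h1, one_mul]
    have hpow : ∀ (w : G), u w * PP ρ g v = PP ρ g v * u w → ∀ n : ℕ, u (w ^ n) * PP ρ g v = PP ρ g v * u (w ^ n) := by
      intro w hw n
      induction n with
      | zero => rw [pow_zero, u, map_one, one_mul, mul_one]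
      | succ n ih =>
        have : u (w ^ (n + 1)) = (u (w ^ n) * u w : MonoidAlgebra ℂ G) := by rw [u, u, u, ← map_mul, pow_succ]
        rw [this, mul_assoc, hw, ← mul_assoc, ih, mul_assoc]
    intro i
    obtain ⟨n, rfl | rfl⟩ := i.eq_nat_or_neg
    · rw [zpow_natCast]; exact hpow t ht n
    · rw [zpow_neg, zpow_natCast, ← inv_pow]; exact hpow t⁻¹ hinv n
  intro s hs
  obtain ⟨i, r, rfl, hr⟩ := hS s hs
  have hr' : u r * PP ρ g v = PP ρ g v * u r := by
    have hs : ∀ b, r⁻¹ * b * r ∈ B ↔ b ∈ B := by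
      have h1 : ∀ b ∈ B, r⁻¹ * b * r ∈ B := by
        intro b hb
        have := mul_mem (hAB (hr b hb)) hb
        rwa [inv_mul_cancel_right] at this
      have hmap : B.map (MulAut.conj r⁻¹).toMonoidHom ≤ B := by
        rintro _ ⟨b, hb, rfl⟩
        have := h1 b hb
        rw [← inv_inv r] at this
        simpa using this
      have heq : B.map (MulAut.conj r⁻¹).toMonoidHom = B := by
        apply Subgroup.eq_of_le_of_card_ge hmap
        rw [Subgroup.card_map_of_injective (MulEquiv.injective _)]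
      intro b
      constructor
      · intro hb
        rw [← heq] at hb
        obtain ⟨c, hc, hcb⟩ := hb
        have : c = b := by
          have h2 : r⁻¹ * c * r = r⁻¹ * b * r := by simpa using hcb
          exact mul_left_cancel (mul_right_cancel h2)
        rw [← this]; exact hc
      · exact h1 b
    apply PP_comm ρ g v r hs
    intro b
    simp only [pf]
    congr 2
    have h1 : (⟨r⁻¹ * b * r, (hs b).mpr b.2⟩ : B) = ⟨r⁻¹ * b * r * (b : G)⁻¹, hAB (hr b b.2)⟩ * b := by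
      apply Subtype.ext
      change r⁻¹ * (b : G) * r = r⁻¹ * b * r * (b : G)⁻¹ * b
      group
    rw [h1, mul_inv_rev, map_mul]
    have h2 : ρ (⟨r⁻¹ * b * r * (b : G)⁻¹, hAB (hr b b.2)⟩ : B)⁻¹ = 1 := by
      apply hA
      rw [mem_subgroupOf]
      exact inv_mem (hr b b.2)
    rw [h2, mul_one]
  have h3 : u (t ^ i * r) = (u (t ^ i) * u r : MonoidAlgebra ℂ G) := by rw [u, u, u, ← map_mul]
  rw [h3, mul_assoc, hr', ← mul_assoc, hti, mul_assoc]

end build

end Cfsg.Agent.Lib.ExSpB
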