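import Cfsg.Agent.Lib.ExSpB
import Cfsg.Agent.Lib.LocBase
import Cfsg.Agent.Lib.CoprimeAction2
import Cfsg.Agent.Lib.SubgroupTools
import Cfsg.Agent.Lib.RudA

set_option autoImplicit false
set_option linter.unusedSectionVars false

/-!
# Sections of extraspecial groups with operators (helper80)
-/

namespace Cfsg.Agent.Lib.ExSpC

open Subgroup Cfsg.Agent.Lib.ExSpA Cfsg.Agent.Lib.LocBase
open scoped commutatorElement

variable {G : Type*} [Group G]

structure Act (z : G) (B A K S : Subgroup G) : Prop where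
  zc : ∀ g : G, z * g = g * z
  z2 : z * z = 1
  zB : z ∈ B
  zA : z ∉ A
  AB : A ≤ B
  Ac : ∀ a ∈ A, ∀ b ∈ B, a * b = b * a
  sq : ∀ b ∈ B, b * b = 1 ∨ b * b = z
  com : ∀ b ∈ B, ∀ c ∈ B, b * c = c * b ∨ b * c = z * (c * b)
  cen : ∀ b ∈ B, (∀ c ∈ B, b * c = c * b) → b ∈ A ∨ b * z ∈ A
  KA : K ≤ normalizer (A : Set G)
  KB : K ≤ normalizer (B : Set G)
  SA : S ≤ normalizer (A : Set G)
  SB : S ≤ normalizer (B : Set G)
  SK : S ≤ normalizer (K : Set G)
  Kodd : Odd (Nat.card K)
  S2 : IsPGroup 2 S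
  fpf : ∀ b ∈ B, (∀ k ∈ K, k * b = b * k) → b ∈ A ∨ b * z ∈ A

/-- `D = A⟨z⟩` -/
def DD (z : G) (A : Subgroup G) : Subgroup G := A ⊔ zpowers z

theorem mem_zpowers_of_sq {z x : G} (hz2 : z * z = 1) (hx : x ∈ zpowers z) : x = 1 ∨ x = z := by
  obtain ⟨i, rfl⟩ := hx
  simp only
  rcases Int.even_or_odd' i with ⟨m, rfl | rfl⟩
  · left
    rw [zpow_mul, show z ^ (2 : ℤ) = 1 by rw [zpow_ofNat, pow_two, hz2], one_zpow]
  · right
    rw [zpow_add, zpow_mul, show z ^ (2 : ℤ) = 1 by rw [zpow_ofNat, pow_two, hz2], one_zpow, one_mul, zpow_one]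

theorem mem_DD {z : G} {A : Subgroup G} (hzc : ∀ g : G, z * g = g * z) (hz2 : z * z = 1) {x : G} :
    x ∈ DD z A ↔ x ∈ A ∨ x * z ∈ A := by
  have hn : zpowers z ≤ normalizer (A : Set G) := by
    rw [zpowers_le, mem_normalizer_iff]
    intro a
    rw [hzc, mul_inv_cancel_right]
  rw [DD, SubgroupTools.mem_sup_of_le_normalizer hn]
  constructor
  · rintro ⟨a, ha, w, hw, rfl⟩
    rcases mem_zpowers_of_sq hz2 hw with rfl | rfl
    · left; simpa using ha
    · right; rw [mul_assoc, hz2, mul_one]; exact ha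
  · rintro (h | h)
    · exact ⟨x, h, 1, one_mem _, mul_one x⟩
    · exact ⟨x * z, h, z, mem_zpowers z, by rw [mul_assoc, hz2, mul_one]⟩

variable {z : G} {B A K S : Subgroup G}

theorem Act.mem_D (h : Act z B A K S) {x : G} : x ∈ DD z A ↔ x ∈ A ∨ x * z ∈ A := mem_DD h.zc h.z2

theorem Act.A_le_D (_h : Act z B A K S) : A ≤ DD z A := le_sup_left

theorem Act.z_mem_D (_h : Act z B A K S) : z ∈ DD z A := mem_sup_right (mem_zpowers z)

theorem Act.D_le (h : Act z B A K S) : DD z A ≤ B := sup_le h.AB (by rw [zpowers_le]; exact h.zB)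

theorem Act.z1 (h : Act z B A K S) : z ≠ 1 := by
  intro h1
  exact h.zA (h1 ▸ one_mem A)

theorem Act.zinv (h : Act z B A K S) : z⁻¹ = z := inv_eq_of_mul_eq_one_right h.z2

theorem Act.D_comm (h : Act z B A K S) {d b : G} (hd : d ∈ DD z A) (hb : b ∈ B) : d * b = b * d := by
  rcases h.mem_D.1 hd with h1 | h1
  · exact h.Ac d h1 b hb
  · have h2 := h.Ac _ h1 b hb
    rw [mul_assoc, h.zc, ← mul_assoc, ← mul_assoc] at h2
    exact mul_right_cancel h2

theorem Act.cen' (h : Act z B A K S) {b : G} (hb : b ∈ B) (hc : ∀ c ∈ B, b * c = c * b) : b ∈ DD z A :=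
  h.mem_D.2 (h.cen b hb hc)

theorem norm_z (hzc : ∀ g : G, z * g = g * z) (L : Subgroup G) : L ≤ normalizer (zpowers z : Set G) := by
  intro l _
  rw [mem_normalizer_iff_map_conj_eq, MonoidHom.map_zpowers]
  congr 1
  simp [← hzc l]

theorem Act.KD (h : Act z B A K S) : K ≤ normalizer (DD z A : Set G) :=
  le_normalizer_sup h.KA (norm_z h.zc K)

theorem Act.SD (h : Act z B A K S) : S ≤ normalizer (DD z A : Set G) :=
  le_normalizer_sup h.SA (norm_z h.zc S)

theorem Act.B2 (h : Act z B A K S) : IsPGroup 2 B := by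
  intro b
  refine ⟨2, ?_⟩
  apply Subtype.ext
  change (b : G) ^ (2 ^ 2) = 1
  have h1 : (b : G) ^ (2 ^ 2) = (b * b) * (b * b) := by
    rw [show (2 : ℕ) ^ 2 = 4 by norm_num, pow_succ, pow_succ, pow_succ, pow_one, mul_assoc]
  rw [h1]
  rcases h.sq b b.2 with h2 | h2 <;> rw [h2]
  · rw [one_mul]
  · exact h.z2

theorem Act.cop (h : Act z B A K S) [Finite G] {L Y : Subgroup G} (hL : L ≤ K) (hY : Y ≤ B) :
    (Nat.card L).Coprime (Nat.card Y) := by
  have : Fact (Nat.Prime 2) := ⟨Nat.prime_two⟩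
  obtain ⟨n, hn⟩ := IsPGroup.iff_card.mp (h.B2.to_le hY)
  rw [hn]
  apply Nat.Coprime.pow_right
  rw [Nat.coprime_two_right]
  exact Odd.of_dvd_nat h.Kodd (card_dvd_of_le hL)

theorem Act.solvB (h : Act z B A K S) [Finite G] {Y : Subgroup G} (hY : Y ≤ B) : Group.IsSolvable Y := by
  have : Fact (Nat.Prime 2) := ⟨Nat.prime_two⟩
  have := (h.B2.to_le hY).isNilpotent
  infer_instance

/-! ### counting -/

theorem sum_sign {H : Type*} [Group H] [Fintype H] (f : H → ℤ) (hf : ∀ x y, f (x * y) = f x * f y)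
    (h : ∃ x, f x = -1) : ∑ x, f x = 0 := by
  obtain ⟨a, ha⟩ := h
  have h1 : ∑ x, f x = ∑ x, f (a * x) := (Equiv.sum_comp (Equiv.mulLeft a) f).symm
  have h2 : ∑ x, f (a * x) = - ∑ x, f x := by
    rw [← Finset.sum_neg_distrib]
    apply Finset.sum_congr rfl
    intro x _
    rw [hf, ha, neg_one_mul]
  rw [h2] at h1
  omega

open Classical in
/-- the commutator sign -/
noncomputable def chi (x y : G) : ℤ := if x * y = y * x then 1 else -1

theorem Act.chi_mul (h : Act z B A K S) {x x' y : G} (hx : x ∈ B) (hx' : x' ∈ B) (hy : y ∈ B) :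
    chi (x * x') y = chi x y * chi x' y := by
  unfold chi
  have hz1 := h.z1
  by_cases h1 : x * y = y * x
  · by_cases h2 : x' * y = y * x'
    · rw [if_pos h1, if_pos h2, if_pos]
      · norm_num
      · rw [mul_assoc, h2, ← mul_assoc, h1, mul_assoc]
    · rw [if_pos h1, if_neg h2, if_neg]
      · norm_num
      · intro h3
        apply h2
        have h4 : x * (x' * y) = x * (y * x') := by rw [← mul_assoc, h3, ← mul_assoc, ← mul_assoc, h1]
        exact mul_left_cancel h4
  · by_cases h2 : x' * y = y * x'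
    · rw [if_neg h1, if_pos h2, if_neg]
      · norm_num
      · intro h3
        apply h1
        have h4 : x * y * x' = y * x * x' := by rw [mul_assoc, ← h2, ← mul_assoc, h3, mul_assoc]
        exact mul_right_cancel h4
    · rw [if_neg h1, if_neg h2, if_pos]
      · norm_num
      · have h3 := (h.com x hx y hy).resolve_left h1
        have h4 := (h.com x' hx' y hy).resolve_left h2
        calc x * x' * y = x * (x' * y) := mul_assoc _ _ _
          _ = x * (z * (y * x')) := by rw [h4]
          _ = z * (x * y) * x' := by rw [← mul_assoc x z, ← h.zc x]; simp only [mul_assoc]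
          _ = z * (z * (y * x)) * x' := by rw [h3]
          _ = (z * z) * y * x * x' := by simp only [mul_assoc]
          _ = y * (x * x') := by rw [h.z2, one_mul, mul_assoc]

theorem chi_symm (x y : G) : chi x y = chi y x := by
  unfold chi
  by_cases h : x * y = y * x
  · rw [if_pos h, if_pos h.symm]
  · rw [if_neg h, if_neg (fun h' => h h'.symm)]

theorem Act.count (h : Act z B A K S) [Finite G] {X : Subgroup G} (hDX : DD z A ≤ X) (hXB : X ≤ B) :
    Nat.card (B ⊓ centralizer (X : Set G) : Subgroup G) * Nat.card X = Nat.card B * Nat.card (DD z A) := by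
  classical
  have := Fintype.ofFinite G
  have hB := Fintype.ofFinite B
  have hX := Fintype.ofFinite X
  have h1 : ∀ x : B, ∑ y : X, chi (x : G) (y : G) =
      if (x : G) ∈ centralizer (X : Set G) then (Nat.card X : ℤ) else 0 := by
    intro x
    split_ifs with hx
    · rw [mem_centralizer_iff] at hx
      have : ∀ y : X, chi (x : G) (y : G) = 1 := fun y => by
        unfold chi; rw [if_pos (hx y y.2).symm]
      rw [Finset.sum_congr rfl (fun y _ => this y), Finset.sum_const, Finset.card_univ,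
        Nat.card_eq_fintype_card]
      simp
    · apply sum_sign (fun y : X => chi (x : G) (y : G))
      · intro y y'
        rw [chi_symm, chi_symm (x : G) y, chi_symm (x : G) y']
        exact h.chi_mul (hXB y.2) (hXB y'.2) x.2
      · rw [mem_centralizer_iff] at hx
        push Not at hx
        obtain ⟨y, hy, hxy⟩ := hx
        exact ⟨⟨y, hy⟩, by unfold chi; rw [if_neg (fun h' => hxy h'.symm)]⟩
  have h2 : ∀ y : X, ∑ x : B, chi (x : G) (y : G) = if (y : G) ∈ DD z A then (Nat.card B : ℤ) else 0 := by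
    intro y
    split_ifs with hy
    · have : ∀ x : B, chi (x : G) (y : G) = 1 := fun x => by
        unfold chi; rw [if_pos (h.D_comm hy x.2).symm]
      rw [Finset.sum_congr rfl (fun x _ => this x), Finset.sum_const, Finset.card_univ,
        Nat.card_eq_fintype_card]
      simp
    · apply sum_sign (fun x : B => chi (x : G) (y : G))
      · intro x x'
        exact h.chi_mul x.2 x'.2 (hXB y.2)
      · by_contra hcon
        push Not at hcon
        apply hy
        apply h.cen' (hXB y.2)
        intro c hc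
        have := hcon ⟨c, hc⟩
        unfold chi at this
        by_contra hne
        rw [if_neg (fun h' => hne h'.symm)] at this
        exact this rfl
  have h3 : ∑ x : B, ∑ y : X, chi (x : G) (y : G) = ∑ y : X, ∑ x : B, chi (x : G) (y : G) := Finset.sum_comm
  rw [Finset.sum_congr rfl (fun x _ => h1 x), Finset.sum_congr rfl (fun y _ => h2 y)] at h3
  rw [← Finset.sum_filter, ← Finset.sum_filter, Finset.sum_const, Finset.sum_const, nsmul_eq_mul, nsmul_eq_mul] at h3
  have h4 : (Finset.univ.filter (fun x : B => (x : G) ∈ centralizer (X : Set G))).card =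
      Nat.card (B ⊓ centralizer (X : Set G) : Subgroup G) := by
    rw [← Fintype.card_subtype, ← Nat.card_eq_fintype_card]
    apply Nat.card_congr
    exact
      { toFun := fun x => ⟨x.1.1, x.1.2, x.2⟩
        invFun := fun x => ⟨⟨x.1, x.2.1⟩, x.2.2⟩
        left_inv := fun x => rfl
        right_inv := fun x => rfl }
  have h5 : (Finset.univ.filter (fun y : X => (y : G) ∈ DD z A)).card = Nat.card (DD z A) := by
    rw [← Fintype.card_subtype, ← Nat.card_eq_fintype_card]
    apply Nat.card_congr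
    exact
      { toFun := fun x => ⟨x.1.1, x.2⟩
        invFun := fun x => ⟨⟨x.1, hDX x.2⟩, x.2⟩
        left_inv := fun x => rfl
        right_inv := fun x => rfl }
  rw [h4, h5] at h3
  have h6 : Nat.card (B ⊓ centralizer (X : Set G) : Subgroup G) * Nat.card X = Nat.card (DD z A) * Nat.card B := by
    exact_mod_cast h3
  rw [h6, mul_comm]

/-- for nondegenerate `X`, `B = X C_B(X)` -/
theorem Act.eq_mul (h : Act z B A K S) [Finite G] {X : Subgroup G} (hDX : DD z A ≤ X) (hXB : X ≤ B)
    (hR : X ⊓ centralizer (X : Set G) ≤ DD z A) :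
    ∀ b ∈ B, ∃ x ∈ X, ∃ y ∈ B ⊓ centralizer (X : Set G), b = x * y := by
  have hn : B ⊓ centralizer (X : Set G) ≤ normalizer (X : Set G) := inf_le_right.trans (centralizer_le_normalizer _)
  have h1 := SubgroupTools.card_sup_mul_card_inf hn
  have h2 : X ⊓ (B ⊓ centralizer (X : Set G)) = DD z A := by
    apply le_antisymm
    · intro x hx
      exact hR ⟨hx.1, hx.2.2⟩
    · intro x hx
      refine ⟨hDX hx, h.D_le hx, mem_centralizer_iff.2 fun y hy => ?_⟩
      exact (h.D_comm hx (hXB hy)).symm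
  rw [h2, mul_comm (Nat.card X), h.count hDX hXB] at h1
  have h3 : Nat.card (X ⊔ (B ⊓ centralizer (X : Set G)) : Subgroup G) = Nat.card B :=
    Nat.eq_of_mul_eq_mul_right Nat.card_pos h1
  have h4 : X ⊔ (B ⊓ centralizer (X : Set G)) = B :=
    Subgroup.eq_of_le_of_card_ge (sup_le hXB inf_le_left) h3.ge
  intro b hb
  rw [← h4, SubgroupTools.mem_sup_of_le_normalizer hn] at hb
  obtain ⟨x, hx, y, hy, rfl⟩ := hb
  exact ⟨x, hx, y, hy, rfl⟩

/-- double centralizer -/
theorem Act.double (h : Act z B A K S) [Finite G] {X : Subgroup G} (hDX : DD z A ≤ X) (hXB : X ≤ B) :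
    B ⊓ centralizer ((B ⊓ centralizer (X : Set G) : Subgroup G) : Set G) = X := by
  have h1 := h.count hDX hXB
  have hle : DD z A ≤ B ⊓ centralizer (X : Set G) := by
    intro x hx
    refine ⟨h.D_le hx, mem_centralizer_iff.2 fun y hy => ?_⟩
    exact (h.D_comm hx (hXB hy)).symm
  have h2 := h.count hle inf_le_left
  symm
  apply Subgroup.eq_of_le_of_card_ge
  · intro x hx
    refine ⟨hXB hx, mem_centralizer_iff.2 fun y hy => ?_⟩
    exact ((mem_centralizer_iff.1 hy.2) x hx).symm
  · rw [← h1, mul_comm] at h2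
    exact (Nat.eq_of_mul_eq_mul_left Nat.card_pos h2).le

end Cfsg.Agent.Lib.ExSpC
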