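import Cfsg.Agent.Lib.ExSpC
import Cfsg.Agent.Lib.CopQuotGen

set_option autoImplicit false
set_option linter.unusedSectionVars false

/-!
# Sections of extraspecial groups with operators: reductions (helper80)
-/

namespace Cfsg.Agent.Lib.ExSpD

open Subgroup Cfsg.Agent.Lib.ExSpA Cfsg.Agent.Lib.ExSpC Cfsg.Agent.Lib.LocBase
open scoped commutatorElement

variable {G : Type*} [Group G] [Finite G] {z : G} {B A K S : Subgroup G}

/-- **Reduction**: invariant subgroups between `D` and `B`. -/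
theorem p1 (h : Act z B A K S)
    (ih : ∀ B' A' K' S' : Subgroup G, Act z B' A' K' S' → Nat.card B' < Nat.card B → Good z B' A' S')
    {X : Subgroup G} (hDX : DD z A ≤ X) (hXB : X ≤ B) (hXD : X ≠ DD z A) (hXB' : X ≠ B)
    (hKX : K ≤ normalizer (X : Set G)) (hSX : S ≤ normalizer (X : Set G)) : Good z B A S := by
  have hlt : ∀ Y : Subgroup G, Y ≤ B → Y ≠ B → Nat.card Y < Nat.card B := by
    intro Y hY hne
    rcases (Subgroup.card_le_of_le hY).lt_or_eq with h1 | h1
    · exact h1
    · exact absurd (Subgroup.eq_of_le_of_card_ge hY h1.ge) hne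
  by_cases hR : X ⊓ centralizer (X : Set G) ≤ DD z A
  · have hmul := h.eq_mul hDX hXB hR
    have h1 : Act z X A K S :=
      { zc := h.zc
        z2 := h.z2
        zB := hDX h.z_mem_D
        zA := h.zA
        AB := h.A_le_D.trans hDX
        Ac := fun a ha b hb => h.Ac a ha b (hXB hb)
        sq := fun b hb => h.sq b (hXB hb)
        com := fun b hb c hc => h.com b (hXB hb) c (hXB hc)
        cen := fun b hb hc => h.mem_D.1 (hR ⟨hb, mem_centralizer_iff.2 fun y hy => (hc y hy).symm⟩)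
        KA := h.KA
        KB := hKX
        SA := h.SA
        SB := hSX
        SK := h.SK
        Kodd := h.Kodd
        S2 := h.S2
        fpf := fun b hb hk => h.fpf b (hXB hb) hk }
    have h2 : Act z (B ⊓ centralizer (X : Set G)) A K S :=
      { zc := h.zc
        z2 := h.z2
        zB := ⟨h.zB, mem_centralizer_iff.2 fun y _ => (h.zc y).symm⟩
        zA := h.zA
        AB := fun a ha => ⟨h.AB ha, mem_centralizer_iff.2 fun y hy => (h.Ac a ha y (hXB hy)).symm⟩
        Ac := fun a ha b hb => h.Ac a ha b hb.1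
        sq := fun b hb => h.sq b hb.1
        com := fun b hb c hc => h.com b hb.1 c hc.1
        cen := fun b hb hc => h.cen b hb.1 (by
          intro c hcB
          obtain ⟨x, hx, y, hy, rfl⟩ := hmul c hcB
          have e1 : b * x = x * b := (mem_centralizer_iff.1 hb.2 x hx).symm
          rw [← mul_assoc, e1, mul_assoc, hc y hy, mul_assoc])
        KA := h.KA
        KB := le_normalizer_inf h.KB (le_normalizer_centralizer hKX)
        SA := h.SA
        SB := le_normalizer_inf h.SB (le_normalizer_centralizer hSX)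
        SK := h.SK
        Kodd := h.Kodd
        S2 := h.S2
        fpf := fun b hb hk => h.fpf b hb.1 hk }
    have hB2 : B ⊓ centralizer (X : Set G) ≠ B := by
      intro heq
      apply hXD
      apply le_antisymm _ hDX
      intro x hx
      apply h.cen' (hXB hx)
      intro c hc
      rw [← heq] at hc
      exact mem_centralizer_iff.1 hc.2 x hx
    exact good_mul (B₁ := X) (B₂ := B ⊓ centralizer (X : Set G)) h.zc h.zA h.z2
      (fun x hx hx2 => h.mem_D.1 (hR ⟨hx, (mem_inf.1 hx2).2⟩))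
      (fun b hb c hc => mem_centralizer_iff.1 (mem_inf.1 hc).2 b hb) hXB inf_le_left hmul
      (ih _ _ _ _ h1 (hlt _ hXB hXB')) (ih _ _ _ _ h2 (hlt _ inf_le_left hB2))
  · set R := X ⊓ centralizer (X : Set G) with hRdef
    have hRX : R ≤ X := inf_le_left
    have hRB : R ≤ B := hRX.trans hXB
    have hDR : DD z A ≤ R := fun d hd => ⟨hDX hd, mem_centralizer_iff.2 fun y hy => (h.D_comm hd (hXB hy)).symm⟩
    have hRab : ∀ a ∈ R, ∀ b ∈ R, a * b = b * a := fun a ha b hb => mem_centralizer_iff.1 hb.2 a ha.1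
    have hRc : IsMulCommutative R := isMulCommutative_iff_of_setLike.mpr hRab
    have hKR : K ≤ normalizer (R : Set G) := le_normalizer_inf hKX (le_normalizer_centralizer hKX)
    have hSR : S ≤ normalizer (R : Set G) := le_normalizer_inf hSX (le_normalizer_centralizer hSX)
    have hcopR := h.cop (le_refl K) hRB
    have hCR : ⁅R, K⁆ ≤ R := commutator_le_left_of_le hKR
    have hAR : A ≤ R := h.A_le_D.trans hDR
    have hnA : ⁅R, K⁆ ≤ normalizer (A : Set G) := by
      refine le_trans ?_ (centralizer_le_normalizer _)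
      intro x hx
      exact mem_centralizer_iff.2 fun y hy => hRab y (hAR hy) x (hCR hx)
    set A' := A ⊔ ⁅R, K⁆ with hA'
    have hA'R : A' ≤ R := sup_le hAR hCR
    have hmemA' : ∀ x, x ∈ A' ↔ ∃ a ∈ A, ∃ w ∈ ⁅R, K⁆, a * w = x := fun x => SubgroupTools.mem_sup_of_le_normalizer hnA
    have hzA' : z ∉ A' := by
      intro hz
      obtain ⟨a, ha, w, hw, haw⟩ := (hmemA' z).1 hz
      obtain ⟨x, hx, c, hc, rfl⟩ := CoprimeAction2.exists_eq_mul_of_mem h.KA
        (h.cop (le_refl K) h.AB) (Or.inr (h.solvB h.AB)) ha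
      have hx' : x ∈ ⁅R, K⁆ := commutator_mono hAR le_rfl hx
      have hxR := hCR hx'
      have hcR : c ∈ R := hAR hc.1
      have h1 : c⁻¹ * z = x * w := by
        rw [← haw, mul_assoc x c w, ← mul_assoc c⁻¹, ← hRab x hxR c⁻¹ (inv_mem hcR)]
        group
      have h2 : c⁻¹ * z ∈ (R ⊓ centralizer (K : Set G)) ⊓ ⁅R, K⁆ := by
        refine mem_inf.2 ⟨mem_inf.2 ⟨mul_mem (inv_mem hcR) (hDR h.z_mem_D), ?_⟩, ?_⟩
        · exact mul_mem (inv_mem (mem_inf.1 hc).2) (mem_centralizer_iff.2 fun y _ => (h.zc y).symm)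
        · rw [h1]; exact mul_mem hx' hw
      rw [CoprimeAction2.inf_commutator_eq_bot_of_abelian hKR hcopR, mem_bot] at h2
      have h3 : z = c := by
        rw [inv_mul_eq_one] at h2; exact h2.symm
      exact h.zA (h3 ▸ hc.1)
    have hRA' : ∀ r ∈ R, r ∈ A' ∨ r * z ∈ A' := by
      intro r hr
      obtain ⟨x, hx, c, hc, rfl⟩ := CoprimeAction2.exists_eq_mul_of_mem hKR hcopR (Or.inr (h.solvB hRB)) hr
      have hcD := h.fpf c (hRB hc.1) (fun k hk => (mem_centralizer_iff.1 hc.2 k hk))
      rcases hcD with h1 | h1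
      · left; exact mul_mem (mem_sup_right hx) (mem_sup_left h1)
      · right; rw [mul_assoc]; exact mul_mem (mem_sup_right hx) (mem_sup_left h1)
    have h1 : Act z (B ⊓ centralizer (R : Set G)) A' K S :=
      { zc := h.zc
        z2 := h.z2
        zB := ⟨h.zB, mem_centralizer_iff.2 fun y _ => (h.zc y).symm⟩
        zA := hzA'
        AB := fun a ha => ⟨hRB (hA'R ha), mem_centralizer_iff.2 fun y hy => hRab y hy a (hA'R ha)⟩
        Ac := fun a ha b hb => mem_centralizer_iff.1 hb.2 a (hA'R ha)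
        sq := fun b hb => h.sq b hb.1
        com := fun b hb c hc => h.com b hb.1 c hc.1
        cen := fun b hb hc => by
          apply hRA'
          rw [← h.double hDR hRB]
          exact ⟨hb.1, mem_centralizer_iff.2 fun y hy => (hc y hy).symm⟩
        KA := le_normalizer_sup h.KA (le_normalizer_commutator hKR le_normalizer)
        KB := le_normalizer_inf h.KB (le_normalizer_centralizer hKR)
        SA := le_normalizer_sup h.SA (le_normalizer_commutator hSR h.SK)
        SB := le_normalizer_inf h.SB (le_normalizer_centralizer hSR)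
        SK := h.SK
        Kodd := h.Kodd
        S2 := h.S2
        fpf := fun b hb hk => (h.fpf b hb.1 hk).imp (fun h => mem_sup_left h) (fun h => mem_sup_left h) }
    have hB2 : B ⊓ centralizer (R : Set G) ≠ B := by
      intro heq
      apply hR
      intro x hx
      apply h.cen' (hRB hx)
      intro c hc
      rw [← heq] at hc
      exact mem_centralizer_iff.1 hc.2 x hx
    refine good_iso h.zc (A' := A') le_sup_left (B' := B ⊓ centralizer (R : Set G)) inf_le_left h1.Ac ?_
      (ih _ _ _ _ h1 (hlt _ inf_le_left hB2))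
    intro b hb hbB
    have h2 : ∃ r ∈ R, b * r ≠ r * b := by
      by_contra hcon
      push Not at hcon
      exact hbB ⟨hb, mem_centralizer_iff.2 fun y hy => (hcon y hy).symm⟩
    obtain ⟨r, hr, hbr⟩ := h2
    rcases hRA' r hr with h3 | h3
    · exact ⟨r, h3, (h.com b hb r (hRB hr)).resolve_left hbr⟩
    · refine ⟨r * z, h3, (h.com b hb (r * z) (hRB (hA'R h3))).resolve_left ?_⟩
      intro h4
      apply hbr
      rw [← mul_assoc, mul_assoc r z b, h.zc b, ← mul_assoc] at h4
      exact mul_right_cancel h4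

/-- `C`: the elements of `K` acting trivially on `B/D` -/
def CC (h : Act z B A K S) : Subgroup G where
  carrier := {k | k ∈ K ∧ ∀ b ∈ B, k * b * k⁻¹ * b⁻¹ ∈ DD z A}
  one_mem' := ⟨one_mem _, fun b _ => by simp⟩
  mul_mem' := by
    rintro k l ⟨hk, hk'⟩ ⟨hl, hl'⟩
    refine ⟨mul_mem hk hl, fun b hb => ?_⟩
    have h1 : k * l * b * (k * l)⁻¹ * b⁻¹ = (k * (l * b * l⁻¹ * b⁻¹) * k⁻¹) * (k * b * k⁻¹ * b⁻¹) := by group
    rw [h1]
    exact mul_mem (conj_mem_of_le_normalizer h.KD hk (hl' b hb)) (hk' b hb)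
  inv_mem' := by
    rintro k ⟨hk, hk'⟩
    refine ⟨inv_mem hk, fun b hb => ?_⟩
    have h1 : k⁻¹ * b * k⁻¹⁻¹ * b⁻¹ = k⁻¹ * (k * b * k⁻¹ * b⁻¹)⁻¹ * k := by group
    rw [h1]
    exact conj_mem_of_le_normalizer' h.KD hk (inv_mem (hk' b hb))

theorem mem_CC (h : Act z B A K S) {k : G} : k ∈ CC h ↔ k ∈ K ∧ ∀ b ∈ B, k * b * k⁻¹ * b⁻¹ ∈ DD z A := Iff.rfl

theorem CC_le (h : Act z B A K S) : CC h ≤ K := fun _ hk => hk.1

theorem normalizes_CC (h : Act z B A K S) {L : Subgroup G} (hLK : L ≤ normalizer (K : Set G))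
    (hLB : L ≤ normalizer (B : Set G)) (hLD : L ≤ normalizer (DD z A : Set G)) :
    L ≤ normalizer (CC h : Set G) := by
  rw [le_normalizer_iff]
  rintro l hl k ⟨hk, hk'⟩
  refine ⟨conj_mem_of_le_normalizer hLK hl hk, fun b hb => ?_⟩
  have h1 : l * k * l⁻¹ * b * (l * k * l⁻¹)⁻¹ * b⁻¹ = l * (k * (l⁻¹ * b * l) * k⁻¹ * (l⁻¹ * b * l)⁻¹) * l⁻¹ := by
    group
  rw [h1]
  exact conj_mem_of_le_normalizer hLD hl (hk' _ (conj_mem_of_le_normalizer' hLB hl hb))

theorem K_norm_CC (h : Act z B A K S) : K ≤ normalizer (CC h : Set G) :=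
  normalizes_CC h le_normalizer h.KB h.KD

theorem S_norm_CC (h : Act z B A K S) : S ≤ normalizer (CC h : Set G) :=
  normalizes_CC h h.SK h.SB h.SD

/-- an element of `B` fixed modulo `D` by `L ≤ K` can be adjusted by an element of `D` -/
theorem adjust (h : Act z B A K S) {L : Subgroup G} (hL : L ≤ K) {b : G} (hb : b ∈ B)
    (hfix : ∀ l ∈ L, l * b * l⁻¹ * b⁻¹ ∈ DD z A) : ∃ d ∈ DD z A, b * d ∈ B ∧ ∀ l ∈ L, l * (b * d) = (b * d) * l := by
  obtain ⟨d, hd, hc⟩ := CoprimeAction.exists_mul_mem_centralizer (A := L) (D := DD z A) (hL.trans h.KD)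
    (h.cop hL h.D_le) (Or.inr (h.solvB h.D_le)) b (by
      intro l hl
      have h1 := hfix l hl
      have h2 : b⁻¹ * (l * b * l⁻¹) = b⁻¹ * (l * b * l⁻¹ * b⁻¹) * b := by group
      rw [h2, mul_assoc, h.D_comm h1 hb, inv_mul_cancel_left]
      exact h1)
  exact ⟨d, hd, mul_mem hb (h.D_le hd), fun l hl => mem_centralizer_iff.1 hc l hl⟩

/-- `C_B(L)` commutes with `[B, L]`-conjugates: three subgroups lemma -/
theorem comm_of_cent (h : Act z B A K S) {L : Subgroup G} {x w : G}
    (hx : x ∈ B) (hxL : ∀ l ∈ L, l * x = x * l) (hw : w ∈ ⁅B, L⁆) : x * w = w * x := by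
  set X := B ⊓ centralizer (L : Set G) with hX
  have h1 : ⁅⁅X, B⁆, L⁆ = ⊥ := by
    rw [commutator_eq_bot_iff_le_centralizer]
    have h2 : ⁅X, B⁆ ≤ zpowers z := by
      rw [commutator_le]
      intro x hx b hb
      rw [commutatorElement_def]
      rcases h.com x hx.1 b hb with h3 | h3
      · rw [h3]; simp
      · rw [h3]
        have : z * (b * x) * x⁻¹ * b⁻¹ = z := by group
        rw [this]
        exact mem_zpowers z
    refine h2.trans ?_
    rw [zpowers_le]
    exact mem_centralizer_iff.2 fun y _ => (h.zc y).symm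
  have h2 : ⁅⁅L, X⁆, B⁆ = ⊥ := by
    have h3 : ⁅L, X⁆ = ⊥ := by
      rw [commutator_comm, commutator_eq_bot_iff_le_centralizer]
      exact inf_le_right
    rw [h3, commutator_bot_left]
  have h3 : ⁅⁅B, L⁆, X⁆ = ⊥ := by
    have := CoprimeAction2.commutator_commutator_eq_bot h2 (X := L) (Y := X) (Z := B) h1
    exact this
  rw [commutator_eq_bot_iff_le_centralizer] at h3
  exact mem_centralizer_iff.1 (h3 hw) x ⟨hx, mem_centralizer_iff.2 hxL⟩

end Cfsg.Agent.Lib.ExSpD
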