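import Cfsg.Agent.Lib.ExSpD

set_option autoImplicit false
set_option linter.unusedSectionVars false

/-!
# Sections of extraspecial groups with operators: the induction (helper80)
-/

namespace Cfsg.Agent.Lib.ExSpE

open Subgroup Cfsg.Agent.Lib.ExSpA Cfsg.Agent.Lib.ExSpB Cfsg.Agent.Lib.ExSpC Cfsg.Agent.Lib.ExSpD
  Cfsg.Agent.Lib.LocBase
open scoped commutatorElement

variable {G : Type*} [Group G] [Finite G] {z : G} {B A K S : Subgroup G}

/-- the reduced situation -/
structure Ctx (h : Act z B A K S) : Prop where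
  p1 : ∀ X : Subgroup G, DD z A ≤ X → X ≤ B → X ≠ DD z A → K ≤ normalizer (X : Set G) →
    S ≤ normalizer (X : Set G) → X = B
  m1 : ∀ N : Subgroup G, N ≤ K → K ≤ normalizer (N : Set G) → S ≤ normalizer (N : Set G) → N ≠ K → N ≤ CC h
  m2 : CC h ≠ K
  ab : ⁅K, K⁆ ≤ CC h
  BD : B ≠ DD z A

/-- mod-`D` action of a product -/
theorem actD (h : Act z B A K S) {k x d : G} (hk : k ∈ normalizer (DD z A : Set G)) (hx : x ∈ B)
    (hkx : k * x = x * k) (hd : d ∈ DD z A) :
    k * (x * d) * k⁻¹ * (x * d)⁻¹ ∈ DD z A := by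
  have h1 : k * (x * d) * k⁻¹ * (x * d)⁻¹ = x * (k * d * k⁻¹ * d⁻¹) * x⁻¹ := by
    have : k * (x * d) * k⁻¹ * (x * d)⁻¹ = (k * x) * d * k⁻¹ * d⁻¹ * x⁻¹ := by group
    rw [this, hkx]; group
  have h2 : k * d * k⁻¹ * d⁻¹ ∈ DD z A := mul_mem ((mem_normalizer_iff.1 hk d).1 hd) (inv_mem hd)
  rw [h1, ← h.D_comm h2 hx, mul_inv_cancel_right]
  exact h2

theorem m1 (h : Act z B A K S)
    (hp1 : ∀ X : Subgroup G, DD z A ≤ X → X ≤ B → X ≠ DD z A → K ≤ normalizer (X : Set G) →
      S ≤ normalizer (X : Set G) → X = B)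
    (hmin : ∀ N : Subgroup G, Act z B A N S → Nat.card K ≤ Nat.card N)
    {N : Subgroup G} (hNK : N ≤ K) (hKN : K ≤ normalizer (N : Set G)) (hSN : S ≤ normalizer (N : Set G))
    (hne : N ≠ K) : N ≤ CC h := by
  have hlt : ¬ Nat.card K ≤ Nat.card N := fun hle => hne (Subgroup.eq_of_le_of_card_ge hNK hle)
  have h1 : ¬ ∀ b ∈ B, (∀ k ∈ N, k * b = b * k) → b ∈ A ∨ b * z ∈ A := by
    intro hf
    exact hlt (hmin N { zc := h.zc, z2 := h.z2, zB := h.zB, zA := h.zA, AB := h.AB, Ac := h.Ac, sq := h.sq,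
                        com := h.com, cen := h.cen, KA := hNK.trans h.KA, KB := hNK.trans h.KB, SA := h.SA,
                        SB := h.SB, SK := hSN, Kodd := Odd.of_dvd_nat h.Kodd (card_dvd_of_le hNK),
                        S2 := h.S2, fpf := hf })
  push Not at h1
  obtain ⟨b, hb, hbN, hbA, hbz⟩ := h1
  set X := (B ⊓ centralizer (N : Set G)) ⊔ DD z A with hX
  have hKX : K ≤ normalizer (X : Set G) :=
    le_normalizer_sup (le_normalizer_inf h.KB (le_normalizer_centralizer hKN)) h.KD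
  have hSX : S ≤ normalizer (X : Set G) :=
    le_normalizer_sup (le_normalizer_inf h.SB (le_normalizer_centralizer hSN)) h.SD
  have hbX : b ∈ X := mem_sup_left ⟨hb, mem_centralizer_iff.2 fun k hk => hbN k hk⟩
  have hXB : X = B := by
    apply hp1 X le_sup_right (sup_le inf_le_left h.D_le) _ hKX hSX
    intro heq
    rw [heq] at hbX
    rcases h.mem_D.1 hbX with h1 | h1
    · exact hbA h1
    · exact hbz h1
  intro k hk
  refine ⟨hNK hk, fun c hc => ?_⟩
  rw [← hXB, hX] at hc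
  have hn : DD z A ≤ normalizer ((B ⊓ centralizer (N : Set G) : Subgroup G) : Set G) := by
    refine le_trans ?_ (centralizer_le_normalizer _)
    intro d hd
    exact mem_centralizer_iff.2 fun y hy => (h.D_comm hd hy.1).symm
  rw [SubgroupTools.mem_sup_of_le_normalizer hn] at hc
  obtain ⟨x, hx, d, hd, rfl⟩ := hc
  exact actD h (h.KD (hNK hk)) hx.1 (mem_centralizer_iff.1 hx.2 k hk) hd

theorem good_of_eq (h : Act z B A K S) (hBD : B = DD z A) : Good z B A S := by
  apply good_cyclic (S := S) h.zc h.z2 h.zB h.zA h.AB h.Ac ?_ 1 (by simp) (by simp) ?_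
  · intro b hb hbA hbz
    exfalso
    rw [hBD] at hb
    rcases h.mem_D.1 hb with h1 | h1
    · exact hbA h1
    · exact hbz h1
  · intro s hs
    refine ⟨0, s, by simp, fun b hb => ?_⟩
    rw [hBD] at hb
    rcases h.mem_D.1 hb with h1 | h1
    · exact mul_mem (conj_mem_of_le_normalizer' h.SA hs h1) (inv_mem h1)
    · have h2 := mul_mem (conj_mem_of_le_normalizer' h.SA hs h1) (inv_mem h1)
      have h3 : s⁻¹ * (b * z) * s * (b * z)⁻¹ = s⁻¹ * b * s * b⁻¹ := by
        have h4 : s⁻¹ * (b * z) * s * (b * z)⁻¹ = s⁻¹ * b * (z * s) * z⁻¹ * b⁻¹ := by group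
        rw [h4, h.zc s]; group
      rw [h3] at h2
      exact h2

theorem m2 (h : Act z B A K S) (hBD : B ≠ DD z A) : CC h ≠ K := by
  intro heq
  apply hBD
  apply le_antisymm _ h.D_le
  intro b hb
  obtain ⟨d, hd, hbd, hc⟩ := adjust h (le_refl K) hb (fun k hk => by
    rw [← heq] at hk
    exact hk.2 b hb)
  have h1 := h.fpf (b * d) hbd hc
  have h2 : b * d ∈ DD z A := h.mem_D.2 h1
  exact (mul_mem_cancel_right hd).1 h2

end Cfsg.Agent.Lib.ExSpE
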