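import Cfsg.Agent.Lib.ExSpE
import Cfsg.Agent.Lib.AbGen

set_option autoImplicit false
set_option linter.unusedSectionVars false

/-!
# Sections of extraspecial groups with operators: the noncyclic case (helper80)
-/

namespace Cfsg.Agent.Lib.ExSpF
open Subgroup Cfsg.Agent.Lib.ExSpA Cfsg.Agent.Lib.ExSpB Cfsg.Agent.Lib.ExSpC Cfsg.Agent.Lib.ExSpD
  Cfsg.Agent.Lib.ExSpE Cfsg.Agent.Lib.LocBase
open scoped commutatorElement

variable {G : Type*} [Group G] [Finite G] {z : G} {B A K S : Subgroup G}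

theorem exists_index_two {S N : Subgroup G} (hS : IsPGroup 2 S) (hNS : N ≤ S) (hne : N ≠ S) :
    ∃ M : Subgroup G, N ≤ M ∧ M ≤ S ∧ ∃ t ∈ S, t ∉ M ∧ t * t ∈ M ∧ (∀ s ∈ S, s ∈ M ∨ s * t⁻¹ ∈ M) ∧
      ∀ m ∈ M, t⁻¹ * m * t ∈ M := by
  have hf : Fact (Nat.Prime 2) := ⟨Nat.prime_two⟩
  obtain ⟨k, hk⟩ := IsPGroup.iff_card.mp hS
  have hN2 : IsPGroup 2 N := hS.to_le hNS
  obtain ⟨n, hn⟩ := IsPGroup.iff_card.mp (hN2.comap_subtype (K := S))
  have hnk : n < k := by
    rcases lt_or_ge n k with h | h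
    · exact h
    · exfalso
      apply hne
      apply Subgroup.eq_of_le_of_card_ge hNS
      rw [hk]
      have : Nat.card N = 2 ^ n := by
        rw [← hn]
        exact (Nat.card_congr (Subgroup.subgroupOfEquivOfLe hNS).toEquiv).symm
      rw [this]
      exact Nat.pow_le_pow_right (by norm_num) h
  obtain ⟨M', hM', hNM⟩ := Sylow.exists_subgroup_card_pow_prime_le 2 (m := k - 1) (n := n)
    (G := S) (by rw [hk]; exact pow_dvd_pow 2 (by omega)) (N.subgroupOf S) hn (by omega)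
  have hi : M'.index = 2 := by
    have h1 := Subgroup.card_mul_index M'
    rw [hM', hk] at h1
    have h2 : 2 ^ k = 2 ^ (k - 1) * 2 := by rw [← pow_succ]; congr 1; omega
    rw [h2] at h1
    exact Nat.eq_of_mul_eq_mul_left (by positivity) h1
  have hmul := fun a b => Subgroup.mul_mem_iff_of_index_two hi (a := a) (b := b)
  have hex : ∃ t : S, t ∉ M' := by
    by_contra hcon
    push Not at hcon
    have : M' = ⊤ := by ext x; simp [hcon x]
    rw [this, index_top] at hi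
    omega
  obtain ⟨t, ht⟩ := hex
  refine ⟨M'.map S.subtype, ?_, map_subtype_le _, t, t.2, ?_, ?_, ?_, ?_⟩
  · intro x hx
    exact ⟨⟨x, hNS hx⟩, hNM hx, rfl⟩
  · rintro ⟨y, hy, hyt⟩
    have : y = t := Subtype.ext hyt
    exact ht (this ▸ hy)
  · exact ⟨t * t, (hmul t t).2 Iff.rfl, rfl⟩
  · intro s hs
    by_cases h : (⟨s, hs⟩ : S) ∈ M'
    · left; exact ⟨_, h, rfl⟩
    · right
      refine ⟨⟨s, hs⟩ * t⁻¹, ?_, rfl⟩
      apply (hmul _ _).2
      rw [inv_mem_iff]
      exact iff_of_false h ht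
  · rintro _ ⟨m, hm, rfl⟩
    refine ⟨t⁻¹ * m * t, ?_, rfl⟩
    have hn := Subgroup.normal_of_index_eq_two hi
    have := hn.conj_mem m hm t⁻¹
    rwa [inv_inv] at this

theorem ext (h : Act z B A K S) {J : Subgroup G} (hJK : J ≤ K) {b : G} (hb : b ∈ B) (hbD : b ∉ DD z A)
    (hJb : ∀ j ∈ J, j * b * j⁻¹ * b⁻¹ ∈ DD z A) :
    ∃ b' ∈ B, b' ∉ DD z A ∧ ∀ j ∈ CC h ⊔ J, j * b' = b' * j := by
  obtain ⟨d, hd, hbd, hc⟩ := adjust h (L := CC h ⊔ J) (sup_le (CC_le h) hJK) hb (by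
    intro l hl
    rw [SubgroupTools.mem_sup_of_le_normalizer (hJK.trans (K_norm_CC h))] at hl
    obtain ⟨c, hc, j, hj, rfl⟩ := hl
    have h1 : c * j * b * (c * j)⁻¹ * b⁻¹ = (c * (j * b * j⁻¹ * b⁻¹) * c⁻¹) * (c * b * c⁻¹ * b⁻¹) := by group
    rw [h1]
    exact mul_mem (conj_mem_of_le_normalizer h.KD hc.1 (hJb j hj)) (hc.2 b hb))
  exact ⟨b * d, hbd, fun h1 => hbD ((mul_mem_cancel_right hd).1 h1), hc⟩

/-- the sum of the fixed-point spaces -/
def BM (z : G) (B A J M : Subgroup G) : Subgroup G :=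
  DD z A ⊔ ⨆ s ∈ (M : Set G), (B ⊓ centralizer ((J.map (MulAut.conj s).toMonoidHom : Subgroup G) : Set G))

theorem mem_W_conj {J : Subgroup G} {t s b : G} (ht : t ∈ normalizer (B : Set G)) :
    b ∈ B ⊓ centralizer ((J.map (MulAut.conj (t * s)).toMonoidHom : Subgroup G) : Set G) ↔
    t⁻¹ * b * t ∈ B ⊓ centralizer ((J.map (MulAut.conj s).toMonoidHom : Subgroup G) : Set G) := by
  rw [mem_inf, mem_inf, map_conj_mul, ← map_conj_centralizer, mem_map_conj]
  have h1 : b ∈ B ↔ t⁻¹ * b * t ∈ B := by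
    have := mem_normalizer_iff.1 (inv_mem ht) b
    rwa [inv_inv] at this
  rw [h1]

theorem D_le_BM {J M : Subgroup G} : DD z A ≤ BM z B A J M := le_sup_left

theorem W_le_BM {J M : Subgroup G} {s : G} (hs : s ∈ M) :
    B ⊓ centralizer ((J.map (MulAut.conj s).toMonoidHom : Subgroup G) : Set G) ≤ BM z B A J M :=
  le_trans (le_iSup₂ (f := fun s (_ : s ∈ (M : Set G)) =>
    (B ⊓ centralizer ((J.map (MulAut.conj s).toMonoidHom : Subgroup G) : Set G))) s hs) le_sup_right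

theorem BM_le {J M X : Subgroup G} (hD : DD z A ≤ X)
    (hW : ∀ s ∈ M, B ⊓ centralizer ((J.map (MulAut.conj s).toMonoidHom : Subgroup G) : Set G) ≤ X) :
    BM z B A J M ≤ X :=
  sup_le hD (iSup₂_le hW)

theorem BM_conj (h : Act z B A K S) {J M : Subgroup G} {t : G} (ht : t ∈ S)
    {X : Subgroup G} (hD : DD z A ≤ X)
    (hW : ∀ s ∈ M, B ⊓ centralizer ((J.map (MulAut.conj (t * s)).toMonoidHom : Subgroup G) : Set G) ≤ X) :
    (BM z B A J M).map (MulAut.conj t).toMonoidHom ≤ X := by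
  rw [map_conj_le_iff]
  apply BM_le
  · intro d hd
    rw [mem_map_conj, inv_inv]
    exact hD (conj_mem_of_le_normalizer h.SD ht hd)
  · intro s hs b hb
    rw [mem_map_conj, inv_inv]
    apply hW s hs
    rw [mem_W_conj (h.SB ht)]
    have : t⁻¹ * (t * b * t⁻¹) * t = b := by group
    rwa [this]

/-- a maximal subgroup with nontrivial fixed points -/
structure JD (h : Act z B A K S) (J : Subgroup G) : Prop where
  JK : J ≤ K
  CJ : CC h ≤ J
  ne : ¬ J ≤ CC h
  mx : ∀ J' : Subgroup G, J' ≤ K → (∃ b ∈ B, b ∉ DD z A ∧ ∀ j ∈ J', j * b = b * j) → Nat.card J' ≤ Nat.card J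
  b0 : ∃ b ∈ B, b ∉ DD z A ∧ ∀ j ∈ J, j * b = b * j

theorem exists_J (h : Act z B A K S) (c : Ctx h) (hnc : ∀ x ∈ K, CC h ⊔ zpowers x ≠ K) :
    ∃ J, JD h J := by
  set C := CC h with hC
  set W := B ⊓ centralizer (C : Set G) with hW
  have hKC := K_norm_CC h
  have hKW : K ≤ normalizer (W : Set G) := le_normalizer_inf h.KB (le_normalizer_centralizer hKC)
  have hWD : ¬ W ≤ DD z A := by
    intro hle
    apply c.BD
    apply le_antisymm _ h.D_le
    intro b hb
    obtain ⟨d, hd, hbd, hc⟩ := adjust h (CC_le h) hb (fun k hk => hk.2 b hb)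
    exact (mul_mem_cancel_right hd).1 (hle ⟨hbd, mem_centralizer_iff.2 hc⟩)
  have hgen := CopQuotGen.le_iSup_centralizer_of_quotient (P := K) (K := W) (Z := C) (CC_le h) hKC
     (by rw [Subgroup.le_centralizer_iff]; exact inf_le_right) hKW (h.cop le_rfl inf_le_left) c.ab hnc
  obtain ⟨x₀, ⟨hx₀K, hx₀C⟩, hx₀W⟩ : ∃ x₀, (x₀ ∈ K ∧ x₀ ∉ C) ∧ ¬ (W ⊓ centralizer {x₀}) ≤ DD z A := by
    by_contra hcon
    push Not at hcon
    exact hWD (hgen.trans (iSup₂_le fun x hx => hcon x hx))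
  obtain ⟨b₀, hb₀, hb₀D⟩ := SetLike.not_le_iff_exists.1 hx₀W
  have hzx : zpowers x₀ ≤ K := by rw [zpowers_le]; exact hx₀K
  have hbx : ∀ j ∈ zpowers x₀, j * b₀ = b₀ * j := by
    intro j hj
    have h1 : zpowers x₀ ≤ centralizer {b₀} := by
      rw [zpowers_le, mem_centralizer_singleton_iff]
      exact (mem_centralizer_singleton_iff.1 hb₀.2).symm
    exact mem_centralizer_singleton_iff.1 (h1 hj)
  obtain ⟨b₁, hb₁, hb₁D, hb₁c⟩ := ext h hzx hb₀.1.1 hb₀D (fun j hj => by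
    rw [hbx j hj, mul_inv_cancel_right, mul_inv_cancel]; exact one_mem _)
  have hQ0 : CC h ⊔ zpowers x₀ ≤ K ∧ ∃ b ∈ B, b ∉ DD z A ∧ ∀ j ∈ CC h ⊔ zpowers x₀, j * b = b * j :=
    ⟨sup_le (CC_le h) hzx, b₁, hb₁, hb₁D, hb₁c⟩
  let T := {J : Subgroup G // J ≤ K ∧ ∃ b ∈ B, b ∉ DD z A ∧ ∀ j ∈ J, j * b = b * j}
  have hT : Nonempty T := ⟨⟨_, hQ0⟩⟩
  obtain ⟨⟨J, hJK, b, hb, hbD, hbJ⟩, hmax⟩ := Finite.exists_max (fun J : T => Nat.card (J.1 : Subgroup G))
  have hmax' : ∀ J' : Subgroup G, J' ≤ K → (∃ b ∈ B, b ∉ DD z A ∧ ∀ j ∈ J', j * b = b * j) →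
      Nat.card J' ≤ Nat.card J := fun J' h1 h2 => hmax ⟨J', h1, h2⟩
  have h1 := ext h hJK hb hbD (fun j hj => by
    rw [hbJ j hj, mul_inv_cancel_right, mul_inv_cancel]; exact one_mem _)
  have h2 : J = CC h ⊔ J :=
    Subgroup.eq_of_le_of_card_ge le_sup_right (hmax' (CC h ⊔ J) (sup_le (CC_le h) hJK) h1)
  have hCJ : CC h ≤ J := by rw [h2]; exact le_sup_left
  refine ⟨J, hJK, hCJ, ?_, hmax', b, hb, hbD, hbJ⟩
  intro hJC
  have h3 := hmax' _ hQ0.1 hQ0.2
  have h4 : J = CC h ⊔ zpowers x₀ := Subgroup.eq_of_le_of_card_ge (hJC.trans le_sup_left) h3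
  apply hx₀C
  apply hJC
  rw [h4]
  exact mem_sup_right (mem_zpowers x₀)

section

variable {J : Subgroup G}

/-- the conjugate -/
local notation "Js" s => Subgroup.map (MulEquiv.toMonoidHom (MulAut.conj s)) J

theorem JD.conj_le (h : Act z B A K S) (j : JD h J) {s : G} (hs : s ∈ S) : (Js s) ≤ K := by
  intro x hx
  have h1 := conj_mem_of_le_normalizer h.SK hs (j.JK (mem_map_conj.1 hx))
  have h2 : s * (s⁻¹ * x * s) * s⁻¹ = x := by group
  rwa [h2] at h1

theorem JD.CC_le_conj (h : Act z B A K S) (j : JD h J) {s : G} (hs : s ∈ S) : CC h ≤ (Js s) := by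
  intro x hx
  rw [mem_map_conj]
  exact j.CJ (conj_mem_of_le_normalizer' (S_norm_CC h) hs hx)

theorem JD.K_norm_conj (h : Act z B A K S) (c : Ctx h) (j : JD h J) {s : G} (hs : s ∈ S) :
    K ≤ normalizer ((Js s : Subgroup G) : Set G) := by
  rw [le_normalizer_iff]
  intro k hk x hx
  have h1 : k * x * k⁻¹ * x⁻¹ ∈ (Js s) := by
    apply JD.CC_le_conj h j hs
    apply c.ab
    have := commutator_mem_commutator hk (JD.conj_le h j hs hx)
    rwa [commutatorElement_def] at this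
  have h2 := mul_mem h1 hx
  rwa [inv_mul_cancel_right] at h2

theorem JD.meet (h : Act z B A K S) (j : JD h J) {s s' : G} (hs : s ∈ S) (hs' : s' ∈ S)
    (hne : (Js s) ≠ (Js s')) {x : G} (hx : x ∈ B ⊓ centralizer ((Js s : Subgroup G) : Set G))
    (hx' : x ∈ B ⊓ centralizer ((Js s' : Subgroup G) : Set G)) : x ∈ DD z A := by
  by_contra hxD
  have h1 : ∀ y ∈ (Js s) ⊔ (Js s'), y * x = x * y := by
    have h2 : (Js s) ⊔ (Js s') ≤ centralizer {x} := by
      apply sup_le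
      · intro y hy
        rw [mem_centralizer_singleton_iff]
        exact mem_centralizer_iff.1 hx.2 y hy
      · intro y hy
        rw [mem_centralizer_singleton_iff]
        exact mem_centralizer_iff.1 hx'.2 y hy
    intro y hy
    exact mem_centralizer_singleton_iff.1 (h2 hy)
  have h2 := j.mx _ (sup_le (JD.conj_le h j hs) (JD.conj_le h j hs')) ⟨x, hx.1, hxD, h1⟩
  have h3 : (Js s) = (Js s) ⊔ (Js s') :=
    Subgroup.eq_of_le_of_card_ge le_sup_left (by rw [card_map_conj]; exact h2)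
  have h4 : (Js s') = (Js s) ⊔ (Js s') :=
    Subgroup.eq_of_le_of_card_ge le_sup_right (by rw [card_map_conj]; exact h2)
  exact hne (h3.trans h4.symm)

theorem JD.K_norm_W (h : Act z B A K S) (c : Ctx h) (j : JD h J) {s : G} (hs : s ∈ S) :
    K ≤ normalizer ((B ⊓ centralizer ((Js s : Subgroup G) : Set G) : Subgroup G) : Set G) :=
  le_normalizer_inf h.KB (le_normalizer_centralizer (JD.K_norm_conj h c j hs))

theorem JD.comm (h : Act z B A K S) (c : Ctx h) (j : JD h J) {s s' : G} (hs : s ∈ S) (hs' : s' ∈ S)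
    (hne : (Js s) ≠ (Js s')) {x y : G} (hx : x ∈ B ⊓ centralizer ((Js s : Subgroup G) : Set G))
    (hy : y ∈ B ⊓ centralizer ((Js s' : Subgroup G) : Set G)) : x * y = y * x := by
  have hLK := JD.conj_le h j hs
  obtain ⟨w, hw, d, hd, rfl⟩ := CoprimeAction2.exists_eq_mul_of_mem (A := (Js s))
    (K := B ⊓ centralizer ((Js s' : Subgroup G) : Set G)) (hLK.trans (JD.K_norm_W h c j hs'))
    (h.cop hLK inf_le_left) (Or.inr (h.solvB inf_le_left)) hy
  have h1 : d ∈ DD z A := JD.meet h j hs hs' hne ⟨hd.1.1, hd.2⟩ hd.1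
  have h2 : x * w = w * x := comm_of_cent h hx.1 (fun l hl => mem_centralizer_iff.1 hx.2 l hl)
    (commutator_mono inf_le_left le_rfl hw)
  rw [← mul_assoc, h2, mul_assoc, ← h.D_comm h1 hx.1, mul_assoc]

theorem JD.K_norm_BM (h : Act z B A K S) (c : Ctx h) (j : JD h J) {M : Subgroup G} (hM : M ≤ S) :
    K ≤ normalizer ((BM z B A J M : Subgroup G) : Set G) :=
  le_normalizer_sup h.KD (AbGen.le_normalizer_iSup₂ _ _ fun _ hs => JD.K_norm_W h c j (hM hs))

theorem JD.M_norm_BM (h : Act z B A K S) {M : Subgroup G} (hM : M ≤ S) :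
    M ≤ normalizer ((BM z B A J M : Subgroup G) : Set G) := by
  intro m hm
  apply mem_normalizer_of_map_conj_le
  apply BM_conj h (hM hm) D_le_BM
  intro s hs
  exact W_le_BM (mul_mem hm hs)

theorem JD.BM_le_B (h : Act z B A K S) {M : Subgroup G} : BM z B A J M ≤ B :=
  BM_le h.D_le fun _ _ => inf_le_left

theorem JD.BM_ne (h : Act z B A K S) (j : JD h J) {M : Subgroup G} : BM z B A J M ≠ DD z A := by
  intro heq
  obtain ⟨b, hb, hbD, hbJ⟩ := j.b0
  apply hbD
  rw [← heq]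
  apply W_le_BM (one_mem M)
  rw [map_conj_one]
  exact ⟨hb, mem_centralizer_iff.2 hbJ⟩

end

/-- the union of two elementwise commuting subgroups -/
theorem mem_sup_of_comm {X Y : Subgroup G} (hXY : ∀ x ∈ X, ∀ y ∈ Y, x * y = y * x) {b : G} :
    b ∈ X ⊔ Y ↔ ∃ x ∈ X, ∃ y ∈ Y, x * y = b := by
  apply SubgroupTools.mem_sup_of_le_normalizer
  refine le_trans ?_ (centralizer_le_normalizer _)
  intro y hy
  exact mem_centralizer_iff.2 fun x hx => hXY x hx y hy

theorem noncyc (h : Act z B A K S) (c : Ctx h)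
    (ih : ∀ B' A' K' S' : Subgroup G, Act z B' A' K' S' → Nat.card B' < Nat.card B → Good z B' A' S')
    (hnc : ∀ x ∈ K, CC h ⊔ zpowers x ≠ K) : Good z B A S := by
  obtain ⟨J, j⟩ := exists_J h c hnc
  have hBM : BM z B A J S = B :=
    c.p1 _ D_le_BM (JD.BM_le_B h) (JD.BM_ne h j) (JD.K_norm_BM h c j le_rfl) (JD.M_norm_BM h le_rfl)
  -- `S` does not normalize `J`
  have hN : S ⊓ normalizer (J : Set G) ≠ S := by
    intro heq
    apply j.ne
    intro x hx
    refine ⟨j.JK hx, fun b hb => ?_⟩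
    have h1 : BM z B A J S ≤ DD z A ⊔ (B ⊓ centralizer (J : Set G)) := by
      apply BM_le le_sup_left
      intro s hs
      have h2 : s ∈ normalizer (J : Set G) := by
        rw [← heq] at hs
        exact hs.2
      rw [map_conj_eq_of_mem h2]
      exact le_sup_right
    rw [hBM] at h1
    have h2 := h1 hb
    have hcm : ∀ x ∈ B ⊓ centralizer (J : Set G), ∀ y ∈ DD z A, x * y = y * x :=
      fun x hx y hy => (h.D_comm hy hx.1).symm
    rw [sup_comm, mem_sup_of_comm hcm] at h2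
    obtain ⟨w, hw, d, hd, rfl⟩ := h2
    exact actD h (h.KD (j.JK hx)) hw.1 (mem_centralizer_iff.1 hw.2 x hx) hd
  obtain ⟨M, hNM, hMS, t, htS, htM, htt, hsM, htm⟩ := exists_index_two h.S2 inf_le_left hN
  set B₁ := BM z B A J M with hB₁
  set B₂ := B₁.map (MulAut.conj t).toMonoidHom with hB₂
  have hB₁B : B₁ ≤ B := JD.BM_le_B h
  have hDB₁ : DD z A ≤ B₁ := D_le_BM
  have hB₂B : B₂ ≤ B := by
    rw [hB₂, ← map_conj_eq_of_mem (h.SB htS)]
    exact map_conj_mono t hB₁B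
  have hDB₂ : DD z A ≤ B₂ := by
    rw [hB₂, ← map_conj_eq_of_mem (h.SD htS)]
    exact map_conj_mono t hDB₁
  have hne : ∀ m ∈ M, ∀ m' ∈ M, J.map (MulAut.conj m).toMonoidHom ≠ J.map (MulAut.conj (t * m')).toMonoidHom := by
    intro m hm m' hm' heq
    apply htM
    have h1 : m⁻¹ * (t * m') ∈ normalizer (J : Set G) := by
      apply mem_normalizer_of_map_conj_eq
      rw [map_conj_mul, ← heq, ← map_conj_mul, inv_mul_cancel, map_conj_one]
    have h2 : m⁻¹ * (t * m') ∈ M := hNM ⟨S.mul_mem (S.inv_mem (hMS hm)) (S.mul_mem htS (hMS hm')), h1⟩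
    have h3 := mul_mem (mul_mem hm h2) (inv_mem hm')
    have h4 : m * (m⁻¹ * (t * m')) * m'⁻¹ = t := by group
    rwa [h4] at h3
  have hcom : ∀ b ∈ B₁, ∀ b' ∈ B₂, b * b' = b' * b := by
    -- `B₁ ≤ centralizer of each W(t m)`
    have h1 : ∀ m' ∈ M, B₁ ≤ centralizer ((B ⊓ centralizer ((J.map (MulAut.conj (t * m')).toMonoidHom : Subgroup G) : Set G) : Subgroup G) : Set G) := by
      intro m' hm'
      apply BM_le
      · intro d hd
        exact mem_centralizer_iff.2 fun y hy => (h.D_comm hd hy.1).symm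
      · intro m hm x hx
        exact mem_centralizer_iff.2 fun y hy =>
          (JD.comm h c j (hMS hm) (mul_mem htS (hMS hm')) (hne m hm m' hm') hx hy).symm
    have h2 : B₂ ≤ centralizer (B₁ : Set G) := by
      apply BM_conj h htS
      · intro d hd
        exact mem_centralizer_iff.2 fun y hy => (h.D_comm hd (hB₁B hy)).symm
      · intro m' hm' y hy
        exact mem_centralizer_iff.2 fun x hx => (mem_centralizer_iff.1 (h1 m' hm' hx) y hy).symm
    intro b hb b' hb'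
    exact mem_centralizer_iff.1 (h2 hb') b hb
  have hsup : B ≤ B₁ ⊔ B₂ := by
    rw [← hBM]
    apply BM_le (hDB₁.trans le_sup_left)
    intro s hs
    rcases hsM s hs with h1 | h1
    · exact (W_le_BM h1).trans le_sup_left
    · refine le_trans ?_ le_sup_right
      intro b hb
      rw [hB₂, mem_map_conj]
      have h2 : t⁻¹ * s ∈ M := by
        have h3 := htm _ h1
        have h4 : t⁻¹ * (s * t⁻¹) * t = t⁻¹ * s := by group
        rwa [h4] at h3
      apply W_le_BM h2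
      rw [← mem_W_conj (h.SB htS)]
      rwa [mul_inv_cancel_left]
  have hB : ∀ b ∈ B, ∃ x ∈ B₁, ∃ y ∈ B₂, b = x * y := by
    intro b hb
    obtain ⟨x, hx, y, hy, rfl⟩ := (mem_sup_of_comm hcom).1 (hsup hb)
    exact ⟨x, hx, y, hy, rfl⟩
  have hint : ∀ x ∈ B₁, x ∈ B₂ → x ∈ A ∨ x * z ∈ A := by
    intro x hx hx'
    apply h.cen x (hB₁B hx)
    intro b hb
    obtain ⟨y, hy, y', hy', rfl⟩ := hB b hb
    rw [← mul_assoc, ← hcom y hy x hx', mul_assoc, hcom x hx y' hy', mul_assoc]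
  have hA1 : Act z B₁ A K M :=
    { zc := h.zc
      z2 := h.z2
      zB := hDB₁ h.z_mem_D
      zA := h.zA
      AB := h.A_le_D.trans hDB₁
      Ac := fun a ha b hb => h.Ac a ha b (hB₁B hb)
      sq := fun b hb => h.sq b (hB₁B hb)
      com := fun b hb c hc => h.com b (hB₁B hb) c (hB₁B hc)
      cen := fun b hb hc => h.cen b (hB₁B hb) (by
        intro b' hb'
        obtain ⟨x, hx, y, hy, rfl⟩ := hB b' hb'
        rw [← mul_assoc, hc x hx, mul_assoc, hcom b hb y hy, mul_assoc])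
      KA := h.KA
      KB := JD.K_norm_BM h c j hMS
      SA := hMS.trans h.SA
      SB := JD.M_norm_BM h hMS
      SK := hMS.trans h.SK
      Kodd := h.Kodd
      S2 := h.S2.to_le hMS
      fpf := fun b hb hk => h.fpf b (hB₁B hb) hk }
  have hlt : Nat.card B₁ < Nat.card B := by
    rcases (Subgroup.card_le_of_le hB₁B).lt_or_eq with h1 | h1
    · exact h1
    · exfalso
      have h2 : B₁ = B := Subgroup.eq_of_le_of_card_ge hB₁B h1.ge
      have h3 : B₂ = B := by rw [hB₂, h2, map_conj_eq_of_mem (h.SB htS)]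
      apply c.BD
      apply le_antisymm _ h.D_le
      intro b hb
      apply h.cen' hb
      intro b' hb'
      apply hcom b (by rw [h2]; exact hb) b' (by rw [h3]; exact hb')
  exact good_swap (B₁ := B₁) (B₂ := B₂) h.zc h.zA h.z2 hint hcom hB₁B hB₂B hB t htt hsM htm
    (fun a ha => conj_mem_of_le_normalizer' h.SA htS ha) (fun b => mem_map_conj) (ih _ _ _ _ hA1 hlt)

end Cfsg.Agent.Lib.ExSpF
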