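import Cfsg.Agent.Lib.ExSpF

set_option autoImplicit false
set_option linter.unusedSectionVars false

/-!
# Sections of extraspecial groups with operators: the cyclic case (helper80)
-/

namespace Cfsg.Agent.Lib.ExSpG

open Subgroup Cfsg.Agent.Lib.ExSpA Cfsg.Agent.Lib.ExSpB Cfsg.Agent.Lib.ExSpC Cfsg.Agent.Lib.ExSpD
  Cfsg.Agent.Lib.ExSpE Cfsg.Agent.Lib.ExSpF Cfsg.Agent.Lib.LocBase
open scoped commutatorElement

/-- the action on a chief factor that is cyclic -/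
theorem exists_gen_normal {H : Type*} [Group H] [Finite H] (C K : Subgroup H) [hC : C.Normal] [hK : K.Normal]
    (hCK : C ≤ K) (hne : C ≠ K) (hab : ⁅K, K⁆ ≤ C) (S : Subgroup H)
    (hmin : ∀ N : Subgroup H, N ≤ K → K ≤ normalizer (N : Set H) → S ≤ normalizer (N : Set H) → N ≠ K → N ≤ C)
    {x : H} (hxK : x ∈ K) (hx : C ⊔ zpowers x = K) :
    ∃ t ∈ S, ∀ s ∈ S, ∃ i : ℤ, ∀ k ∈ K, ((t ^ i)⁻¹ * s) * k * ((t ^ i)⁻¹ * s)⁻¹ * k⁻¹ ∈ C := by
  classical
  set π : H →* H ⧸ C := QuotientGroup.mk' C with hπ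
  have hπ1 : ∀ y : H, π y = 1 ↔ y ∈ C := fun y => QuotientGroup.eq_one_iff y
  set N : Subgroup (H ⧸ C) := K.map π with hN
  have hNn : N.Normal := hK.map π (QuotientGroup.mk'_surjective C)
  have hcomm : ∀ k ∈ K, ∀ l ∈ K, Commute (π k) (π l) := by
    intro k hk l hl
    have h1 := hab (commutator_mem_commutator hk hl)
    rw [← hπ1, commutatorElement_def, map_mul, map_mul, map_mul, map_inv, map_inv] at h1
    have h2 : π k * π l * (π k)⁻¹ * (π l)⁻¹ * (π l * π k) = π k * π l := by group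
    rw [h1, one_mul] at h2
    exact h2.symm
  have hNx : N = zpowers (π x) := by
    rw [hN, ← hx, Subgroup.map_sup, MonoidHom.map_zpowers]
    have : C.map π = ⊥ := by
      rw [eq_bot_iff]
      rintro _ ⟨y, hy, rfl⟩
      rw [mem_bot]
      exact (hπ1 y).2 hy
    rw [this, bot_sup_eq]
  have hx1 : π x ≠ 1 := by
    intro h1
    apply hne
    apply le_antisymm hCK
    rw [← hx]
    apply sup_le le_rfl
    rw [zpowers_le]
    exact (hπ1 x).1 h1
  have hcard : Nat.card N = orderOf (π x) := by rw [hNx, Nat.card_zpowers]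
  have ho1 : orderOf (π x) ≠ 1 := by rwa [Ne, orderOf_eq_one_iff]
  obtain ⟨q, hq, hqd⟩ := Nat.exists_prime_and_dvd ho1
  have hqf : Fact q.Prime := ⟨hq⟩
  -- `N₁`
  let N₁ : Subgroup H :=
    { carrier := {k | k ∈ K ∧ k ^ q ∈ C}
      one_mem' := ⟨one_mem _, by rw [one_pow]; exact one_mem _⟩
      mul_mem' := by
        rintro k l ⟨hk, hk'⟩ ⟨hl, hl'⟩
        refine ⟨mul_mem hk hl, ?_⟩
        rw [← hπ1, map_pow, map_mul, (hcomm k hk l hl).mul_pow, ← map_pow, ← map_pow, (hπ1 _).2 hk',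
          (hπ1 _).2 hl', one_mul]
      inv_mem' := by
        rintro k ⟨hk, hk'⟩
        refine ⟨inv_mem hk, ?_⟩
        rw [inv_pow]
        exact inv_mem hk' }
  have hN₁n : N₁.Normal := by
    constructor
    rintro k ⟨hk, hk'⟩ g
    refine ⟨hK.conj_mem k hk g, ?_⟩
    rw [conj_pow]
    exact hC.conj_mem _ hk' g
  have hN₁K : N₁ = K := by
    by_contra hcon
    have h1 : N₁ ≤ C := hmin N₁ (fun k hk => hk.1) (normalizer_eq_top_iff.2 hN₁n ▸ le_top)
      (normalizer_eq_top_iff.2 hN₁n ▸ le_top) hcon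
    obtain ⟨m, hm⟩ := hqd
    have h2 : x ^ m ∈ N₁ := by
      refine ⟨pow_mem hxK m, ?_⟩
      rw [← hπ1, map_pow, map_pow, ← pow_mul, mul_comm m q, ← hm, pow_orderOf_eq_one]
    have h3 := h1 h2
    rw [← hπ1, map_pow] at h3
    have h4 := orderOf_dvd_of_pow_eq_one h3
    have hm0 : 0 < m := by
      rcases Nat.eq_zero_or_pos m with h0 | h0
      · rw [h0, mul_zero] at hm
        exact absurd hm (orderOf_pos (π x)).ne'
      · exact h0
    have h5 := Nat.le_of_dvd hm0 h4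
    rw [hm] at h5
    have := hq.two_le
    nlinarith
  have hoq : orderOf (π x) = q := by
    have h1 : x ∈ N₁ := by rw [hN₁K]; exact hxK
    have h2 := h1.2
    rw [← hπ1, map_pow] at h2
    exact orderOf_eq_prime h2 hx1
  have hNcard : Nat.card N = q := by rw [hcard, hoq]
  have hNcyc : IsCyclic N := isCyclic_of_prime_card hNcard
  have hMA : IsCyclic (MulAut N) := by
    have e := IsCyclic.mulAutMulEquiv N
    have h1 : IsCyclic (ZMod (Nat.card N))ˣ := by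
      rw [hNcard]
      exact ZMod.isCyclic_units_prime hq
    exact isCyclic_of_surjective e.symm e.symm.surjective
  let f : S →* MulAut N := (MulAut.conjNormal (H := N)).comp (π.comp S.subtype)
  have hfc : IsCyclic f.range := Subgroup.isCyclic f.range
  obtain ⟨⟨_, t, rfl⟩, ht⟩ := hfc.exists_generator
  refine ⟨t, t.2, fun s hs => ?_⟩
  obtain ⟨i, hi⟩ := ht ⟨f ⟨s, hs⟩, ⟨s, hs⟩, rfl⟩
  have hi' : f t ^ i = f ⟨s, hs⟩ := congrArg Subtype.val hi
  have hr : f ((t ^ i)⁻¹ * ⟨s, hs⟩) = 1 := by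
    rw [map_mul, map_inv, map_zpow, hi', inv_mul_cancel]
  refine ⟨i, fun k hk => ?_⟩
  have h1 := congrArg (fun φ : MulAut N => ((φ ⟨π k, k, hk, rfl⟩ : N) : H ⧸ C)) hr
  simp only [MulAut.one_apply] at h1
  have h2 : ((f ((t ^ i)⁻¹ * ⟨s, hs⟩) ⟨π k, k, hk, rfl⟩ : N) : H ⧸ C) =
      π (((t : H) ^ i)⁻¹ * s) * π k * (π (((t : H) ^ i)⁻¹ * s))⁻¹ := rfl
  rw [h2] at h1
  rw [← hπ1, map_mul, map_mul, map_mul, map_inv, h1, map_inv, mul_inv_cancel]

theorem exists_gen {G : Type*} [Group G] [Finite G] (C K S : Subgroup G) (hCK : C ≤ K) (hne : C ≠ K)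
    (hKC : K ≤ normalizer (C : Set G)) (hSC : S ≤ normalizer (C : Set G)) (hSK : S ≤ normalizer (K : Set G))
    (hab : ⁅K, K⁆ ≤ C)
    (hmin : ∀ N : Subgroup G, N ≤ K → K ≤ normalizer (N : Set G) → S ≤ normalizer (N : Set G) → N ≠ K → N ≤ C)
    {x : G} (hxK : x ∈ K) (hx : C ⊔ zpowers x = K) :
    ∃ t ∈ S, ∀ s ∈ S, ∃ i : ℤ, ∀ k ∈ K, ((t ^ i)⁻¹ * s) * k * ((t ^ i)⁻¹ * s)⁻¹ * k⁻¹ ∈ C := by
  set H : Subgroup G := normalizer (K : Set G) ⊓ normalizer (C : Set G) with hH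
  have hKH : K ≤ H := le_inf le_normalizer hKC
  have hSH : S ≤ H := le_inf hSK hSC
  have hCH : C ≤ H := hCK.trans hKH
  have hCn : (C.subgroupOf H).Normal := normal_subgroupOf_of_le_normalizer inf_le_right
  have hKn : (K.subgroupOf H).Normal := normal_subgroupOf_of_le_normalizer inf_le_left
  have hle : ∀ {X Y : Subgroup G}, X ≤ H → X.subgroupOf H ≤ Y.subgroupOf H → X ≤ Y := by
    intro X Y hX hXY a ha
    exact hXY (show (⟨a, hX ha⟩ : H) ∈ X.subgroupOf H from ha)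
  obtain ⟨t, ht, hts⟩ := exists_gen_normal (C.subgroupOf H) (K.subgroupOf H) (fun a ha => hCK ha)
    (fun heq => hne (le_antisymm hCK (hle hKH heq.ge))) (by
      rw [commutator_le]
      intro a ha b hb
      exact hab (commutator_mem_commutator ha hb)) (S.subgroupOf H) (by
      intro N hNK hKN hSN hNe
      have h1 : N.map H.subtype ≤ K := by
        rintro _ ⟨a, ha, rfl⟩
        exact hNK ha
      have hnorm : ∀ {X : Subgroup G}, X ≤ H → X.subgroupOf H ≤ normalizer (N : Set H) →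
          X ≤ normalizer ((N.map H.subtype : Subgroup G) : Set G) := by
        intro X hX hXN
        rw [le_normalizer_iff]
        rintro a ha _ ⟨b, hb, rfl⟩
        have h2 : (⟨a, hX ha⟩ : H) ∈ X.subgroupOf H := ha
        exact ⟨⟨a, hX ha⟩ * b * ⟨a, hX ha⟩⁻¹, conj_mem_of_le_normalizer hXN h2 hb, rfl⟩
      have h2 : N.map H.subtype ≠ K := by
        intro heq
        apply hNe
        apply le_antisymm hNK
        intro a ha
        have h3 : (a : G) ∈ N.map H.subtype := by rw [heq]; exact ha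
        obtain ⟨b, hb, hba⟩ := h3
        have : b = a := Subtype.ext hba
        rwa [← this]
      have h3 := hmin _ h1 (hnorm hKH hKN) (hnorm hSH hSN) h2
      intro a ha
      exact h3 ⟨a, ha, rfl⟩) (x := ⟨x, hKH hxK⟩) hxK (by
      have h1 : (C.subgroupOf H ⊔ zpowers (⟨x, hKH hxK⟩ : H)).map H.subtype = K := by
        rw [Subgroup.map_sup, map_subgroupOf_eq_of_le hCH, MonoidHom.map_zpowers]
        exact hx
      rw [← comap_map_eq_self_of_injective H.subtype_injective (C.subgroupOf H ⊔ zpowers (⟨x, hKH hxK⟩ : H)), h1]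
      rfl)
  refine ⟨t, ht, fun s hs => ?_⟩
  obtain ⟨i, hi⟩ := hts ⟨s, hSH hs⟩ hs
  exact ⟨i, fun k hk => hi ⟨k, hKH hk⟩ hk⟩

variable {G : Type*} [Group G] [Finite G] {z : G} {B A K S : Subgroup G}

/-- the elements of `S` that act trivially on `K / CC` act trivially on `B / D` -/
theorem triv_D (h : Act z B A K S) (c : Ctx h) {s : G} (hs : s ∈ S)
    (hsK : ∀ k ∈ K, s * k * s⁻¹ * k⁻¹ ∈ CC h) : ∀ b ∈ B, s * b * s⁻¹ * b⁻¹ ∈ DD z A := by
  have hf : Fact (Nat.Prime 2) := ⟨Nat.prime_two⟩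
  -- `S₀`
  let S₀ : Subgroup G :=
    { carrier := {s | s ∈ S ∧ ∀ k ∈ K, s * k * s⁻¹ * k⁻¹ ∈ CC h}
      one_mem' := ⟨one_mem _, fun k _ => by simp⟩
      mul_mem' := by
        rintro a b ⟨ha, ha'⟩ ⟨hb, hb'⟩
        refine ⟨mul_mem ha hb, fun k hk => ?_⟩
        have h1 : a * b * k * (a * b)⁻¹ * k⁻¹ = (a * (b * k * b⁻¹ * k⁻¹) * a⁻¹) * (a * k * a⁻¹ * k⁻¹) := by group
        rw [h1]
        exact mul_mem (conj_mem_of_le_normalizer (S_norm_CC h) ha (hb' k hk)) (ha' k hk)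
      inv_mem' := by
        rintro a ⟨ha, ha'⟩
        refine ⟨inv_mem ha, fun k hk => ?_⟩
        have h1 : a⁻¹ * k * a⁻¹⁻¹ * k⁻¹ = a⁻¹ * (a * k * a⁻¹ * k⁻¹)⁻¹ * a := by group
        rw [h1]
        exact conj_mem_of_le_normalizer' (S_norm_CC h) ha (inv_mem (ha' k hk)) }
  have hS₀S : S₀ ≤ S := fun a ha => ha.1
  have hSS₀ : S ≤ normalizer (S₀ : Set G) := by
    rw [le_normalizer_iff]
    rintro a ha b ⟨hb, hb'⟩
    refine ⟨mul_mem (mul_mem ha hb) (inv_mem ha), fun k hk => ?_⟩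
    have h1 : a * b * a⁻¹ * k * (a * b * a⁻¹)⁻¹ * k⁻¹ =
        a * (b * (a⁻¹ * k * a) * b⁻¹ * (a⁻¹ * k * a)⁻¹) * a⁻¹ := by group
    rw [h1]
    exact conj_mem_of_le_normalizer (S_norm_CC h) ha (hb' _ (conj_mem_of_le_normalizer' h.SK ha hk))
  -- `X`
  let X : Subgroup G :=
    { carrier := {b | b ∈ B ∧ ∀ s ∈ S₀, s * b * s⁻¹ * b⁻¹ ∈ DD z A}
      one_mem' := ⟨one_mem _, fun s _ => by simp⟩
      mul_mem' := by
        rintro a b ⟨ha, ha'⟩ ⟨hb, hb'⟩
        refine ⟨mul_mem ha hb, fun s hs => ?_⟩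
        have h1 : s * (a * b) * s⁻¹ * (a * b)⁻¹ = (s * a * s⁻¹ * a⁻¹) * (a * (s * b * s⁻¹ * b⁻¹) * a⁻¹) := by group
        rw [h1, ← h.D_comm (hb' s hs) ha, mul_inv_cancel_right]
        exact mul_mem (ha' s hs) (hb' s hs)
      inv_mem' := by
        rintro a ⟨ha, ha'⟩
        refine ⟨inv_mem ha, fun s hs => ?_⟩
        have h1 : s * a⁻¹ * s⁻¹ * a⁻¹⁻¹ = a⁻¹ * (s * a * s⁻¹ * a⁻¹)⁻¹ * a := by group
        have h2 := inv_mem (ha' s hs)
        rw [h1, ← h.D_comm h2 (inv_mem ha), inv_mul_cancel_right]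
        exact h2 }
  have hXB : X ≤ B := fun a ha => ha.1
  have hDX : DD z A ≤ X := by
    intro d hd
    exact ⟨h.D_le hd, fun s hs => mul_mem (conj_mem_of_le_normalizer h.SD hs.1 hd) (inv_mem hd)⟩
  have hSX : S ≤ normalizer (X : Set G) := by
    rw [le_normalizer_iff]
    rintro a ha b ⟨hb, hb'⟩
    refine ⟨conj_mem_of_le_normalizer h.SB ha hb, fun s hs => ?_⟩
    have h1 : s * (a * b * a⁻¹) * s⁻¹ * (a * b * a⁻¹)⁻¹ =
        a * ((a⁻¹ * s * a) * b * (a⁻¹ * s * a)⁻¹ * b⁻¹) * a⁻¹ := by group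
    rw [h1]
    exact conj_mem_of_le_normalizer h.SD ha (hb' _ (conj_mem_of_le_normalizer' hSS₀ ha hs))
  have hKX : K ≤ normalizer (X : Set G) := by
    rw [le_normalizer_iff]
    rintro k hk b ⟨hb, hb'⟩
    refine ⟨conj_mem_of_le_normalizer h.KB hk hb, fun s hs => ?_⟩
    have hc := hs.2 k hk
    set e := s * k * s⁻¹ * k⁻¹ with he
    have hsk : s * k = e * k * s := by rw [he]; group
    have h1 : s * (k * b * k⁻¹) * s⁻¹ * (k * b * k⁻¹)⁻¹ =
        (e * k * (s * b * s⁻¹ * b⁻¹) * (e * k)⁻¹) * (e * (k * b * k⁻¹) * e⁻¹ * (k * b * k⁻¹)⁻¹) := by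
      have h2 : s * (k * b * k⁻¹) * s⁻¹ = (s * k) * b * (s * k)⁻¹ := by group
      rw [h2, hsk]; group
    rw [h1]
    refine mul_mem ?_ (hc.2 _ (conj_mem_of_le_normalizer h.KB hk hb))
    exact conj_mem_of_le_normalizer h.KD (mul_mem hc.1 hk) (hb' s hs)
  have hXD : X ≠ DD z A := by
    intro heq
    -- the `2`-group `T = B S₀`
    set T : Subgroup G := B ⊔ S₀ with hT
    have hS₀B : S₀ ≤ normalizer (B : Set G) := hS₀S.trans h.SB
    have hT2 : IsPGroup 2 T := isPGroup_sup h.B2 (h.S2.to_le hS₀S) hS₀B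
    have hTB : T ≤ normalizer (B : Set G) := sup_le le_normalizer hS₀B
    have hTD : T ≤ normalizer (DD z A : Set G) := by
      apply sup_le _ (hS₀S.trans h.SD)
      refine le_trans ?_ (centralizer_le_normalizer _)
      intro b hb
      exact mem_centralizer_iff.2 fun y hy => h.D_comm hy hb
    have hBT : B ≤ T := le_sup_left
    obtain ⟨w, hw, hwD, hwc⟩ := RudA.exists_central_mod (T := T) hT2 (F := (DD z A).subgroupOf T)
      (K := B.subgroupOf T) (normal_subgroupOf_of_le_normalizer hTD) (normal_subgroupOf_of_le_normalizer hTB) (by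
        intro hle
        apply c.BD
        apply le_antisymm _ h.D_le
        intro b hb
        exact hle (show (⟨b, hBT hb⟩ : T) ∈ B.subgroupOf T from hb))
    apply hwD
    change (w : G) ∈ DD z A
    rw [← heq]
    refine ⟨hw, fun s hs => ?_⟩
    exact (hwc ⟨s, mem_sup_right hs⟩).2
  have hX := c.p1 X hDX hXB hXD hKX hSX
  intro b hb
  rw [← hX] at hb
  exact hb.2 s ⟨hs, hsK⟩

/-- and hence trivially on `B / A` -/
theorem triv_A (h : Act z B A K S) (c : Ctx h) {s : G} (hs : s ∈ S)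
    (hsK : ∀ k ∈ K, s * k * s⁻¹ * k⁻¹ ∈ CC h) : ∀ b ∈ B, s * b * s⁻¹ * b⁻¹ ∈ A := by
  have hD := triv_D h c hs hsK
  -- conjugation trivial modulo `A` on `D`
  have hDA : ∀ g ∈ normalizer (A : Set G), ∀ d ∈ DD z A, g * d * g⁻¹ * d⁻¹ ∈ A := by
    intro g hg d hd
    rcases h.mem_D.1 hd with h1 | h1
    · exact mul_mem ((mem_normalizer_iff.1 hg d).1 h1) (inv_mem h1)
    · have h2 := mul_mem ((mem_normalizer_iff.1 hg _).1 h1) (inv_mem h1)
      have h3 : g * (d * z) * g⁻¹ * (d * z)⁻¹ = g * d * g⁻¹ * d⁻¹ := by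
        have h4 : g * (d * z) * g⁻¹ * (d * z)⁻¹ = g * d * (z * g⁻¹) * z⁻¹ * d⁻¹ := by group
        rw [h4, h.zc]; group
      rwa [h3] at h2
  let X : Subgroup G :=
    { carrier := {b | b ∈ B ∧ s * b * s⁻¹ * b⁻¹ ∈ A}
      one_mem' := ⟨one_mem _, by simp⟩
      mul_mem' := by
        rintro a b ⟨ha, ha'⟩ ⟨hb, hb'⟩
        refine ⟨mul_mem ha hb, ?_⟩
        have h1 : s * (a * b) * s⁻¹ * (a * b)⁻¹ = (s * a * s⁻¹ * a⁻¹) * (a * (s * b * s⁻¹ * b⁻¹) * a⁻¹) := by group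
        rw [h1, ← h.Ac _ hb' _ ha, mul_inv_cancel_right]
        exact mul_mem ha' hb'
      inv_mem' := by
        rintro a ⟨ha, ha'⟩
        refine ⟨inv_mem ha, ?_⟩
        have h1 : s * a⁻¹ * s⁻¹ * a⁻¹⁻¹ = a⁻¹ * (s * a * s⁻¹ * a⁻¹)⁻¹ * a := by group
        have h2 := inv_mem ha'
        rw [h1, ← h.Ac _ h2 _ (inv_mem ha), inv_mul_cancel_right]
        exact h2 }
  have hDX : DD z A ≤ X := fun d hd => ⟨h.D_le hd, hDA s (h.SA hs) d hd⟩
  set W := B ⊓ centralizer (CC h : Set G) with hW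
  have hKW : K ≤ normalizer (W : Set G) := le_normalizer_inf h.KB (le_normalizer_centralizer (K_norm_CC h))
  have hcW : ⁅W, K⁆ ≤ X := by
    rw [commutator_le]
    intro b hb k hk
    refine ⟨?_, ?_⟩
    · rw [commutatorElement_def]
      have h1 := conj_mem_of_le_normalizer h.KB hk (inv_mem hb.1)
      have h2 : b * k * b⁻¹ * k⁻¹ = b * (k * b⁻¹ * k⁻¹) := by group
      rw [h2]
      exact mul_mem hb.1 h1
    · rw [commutatorElement_def]
      -- write `s b s⁻¹ = d b`, `s k s⁻¹ = e k`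
      set d := s * b * s⁻¹ * b⁻¹ with hd
      have hdD : d ∈ DD z A := hD b hb.1
      set e := s * k * s⁻¹ * k⁻¹ with he
      have heC : e ∈ CC h := hsK k hk
      have hsb : s * b * s⁻¹ = d * b := by rw [hd]; group
      have hsk : s * k * s⁻¹ = e * k := by rw [he]; group
      have h1 : s * (b * k * b⁻¹ * k⁻¹) * s⁻¹ = (d * b) * (e * k) * (d * b)⁻¹ * (e * k)⁻¹ := by
        rw [← hsb, ← hsk]; group
      have hbe : b * e = e * b := (mem_centralizer_iff.1 hb.2 e heC).symm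
      have hekK : e * k ∈ K := mul_mem heC.1 hk
      have h2 : (e * k) * d⁻¹ * (e * k)⁻¹ * d ∈ A := by
        have := hDA (e * k) (h.KA hekK) d⁻¹ (inv_mem hdD)
        rwa [inv_inv] at this
      -- `(d b)(e k)(b⁻¹ d⁻¹)(e k)⁻¹ = d b e k b⁻¹ (e k)⁻¹ ((e k) d⁻¹ (e k)⁻¹)`
      have h3 : (d * b) * (e * k) * (d * b)⁻¹ * (e * k)⁻¹ =
          d * (b * e) * k * b⁻¹ * k⁻¹ * e⁻¹ * ((e * k) * d⁻¹ * (e * k)⁻¹) := by group
      have hbk : b * k * b⁻¹ * k⁻¹ ∈ B := by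
        have h1 := conj_mem_of_le_normalizer h.KB hk (inv_mem hb.1)
        have h2 : b * k * b⁻¹ * k⁻¹ = b * (k * b⁻¹ * k⁻¹) := by group
        rw [h2]
        exact mul_mem hb.1 h1
      have hbkW : b * k * b⁻¹ * k⁻¹ ∈ W := by
        have h1 := conj_mem_of_le_normalizer hKW hk (inv_mem hb)
        have h2 : b * k * b⁻¹ * k⁻¹ = b * (k * b⁻¹ * k⁻¹) := by group
        rw [h2]
        exact mul_mem hb h1
      set v := b * k * b⁻¹ * k⁻¹ with hv
      have h4 : e * v * e⁻¹ = v := by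
        rw [mem_centralizer_iff.1 hbkW.2 e heC, mul_inv_cancel_right]
      have h5 : d * (b * e) * k * b⁻¹ * k⁻¹ * e⁻¹ = d * v := by
        rw [hbe]
        have : d * (e * b) * k * b⁻¹ * k⁻¹ * e⁻¹ = d * (e * v * e⁻¹) := by rw [hv]; group
        rw [this, h4]
      set w := (e * k) * d⁻¹ * (e * k)⁻¹ with hw
      have h6 : s * v * s⁻¹ = d * v * w := by rw [h1, h3, h5]
      have hwD : w ∈ DD z A := conj_mem_of_le_normalizer h.KD hekK (inv_mem hdD)
      rw [h6]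
      have h7 : d * v * w * v⁻¹ = w * d := by
        rw [mul_assoc d v w, ← h.D_comm hwD hbk, ← mul_assoc, mul_inv_cancel_right,
          h.D_comm hdD (h.D_le hwD)]
      rw [h7]
      exact h2
  have hWX : W ≤ X := by
    intro b hb
    obtain ⟨x, hx, y, hy, rfl⟩ := CoprimeAction2.exists_eq_mul_of_mem hKW (h.cop le_rfl inf_le_left)
      (Or.inr (h.solvB inf_le_left)) hb
    have h1 : y ∈ DD z A := h.mem_D.2 (h.fpf y hy.1.1 (fun k hk => mem_centralizer_iff.1 hy.2 k hk))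
    exact mul_mem (hcW hx) (hDX h1)
  intro b hb
  have hbX : b ∈ X := by
    obtain ⟨d, hd, hbd, hc⟩ := adjust h (CC_le h) hb (fun k hk => hk.2 b hb)
    have h1 : b * d ∈ X := hWX ⟨hbd, mem_centralizer_iff.2 hc⟩
    exact (mul_mem_cancel_right (hDX hd)).1 h1
  exact hbX.2

theorem cyc (h : Act z B A K S) (c : Ctx h) {x : G} (hxK : x ∈ K) (hx : CC h ⊔ zpowers x = K) :
    Good z B A S := by
  obtain ⟨t, ht, hts⟩ := exists_gen (CC h) K S (CC_le h) c.m2 (K_norm_CC h) (S_norm_CC h) h.SK c.ab c.m1 hxK hx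
  refine good_cyclic (S := S) h.zc h.z2 h.zB h.zA h.AB h.Ac ?_ t ?_ ?_ ?_
  · intro b hb hbA hbz
    by_contra hcon
    push Not at hcon
    have h1 := h.cen b hb (fun c hc => (h.com b hb c hc).resolve_right (hcon c hc))
    rcases h1 with h1 | h1
    · exact hbA h1
    · exact hbz h1
  · intro b
    exact (mem_normalizer_iff.1 (h.SB ht) b).symm
  · intro b
    exact (mem_normalizer_iff.1 (h.SA ht) b).symm
  · intro s hs
    obtain ⟨i, hi⟩ := hts s hs
    refine ⟨i, (t ^ i)⁻¹ * s, by rw [mul_inv_cancel_left], fun b hb => ?_⟩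
    have hrS : (t ^ i)⁻¹ * s ∈ S := mul_mem (inv_mem (zpow_mem ht i)) hs
    set r := (t ^ i)⁻¹ * s with hr
    have h1 := triv_A h c hrS hi b hb
    have h2 : r⁻¹ * b * r * b⁻¹ = r⁻¹ * (b * (r * b⁻¹ * r⁻¹ * b)  * b⁻¹) * r := by group
    have h3 := triv_A h c hrS hi b⁻¹ (inv_mem hb)
    rw [inv_inv] at h3
    rw [h2, ← h.Ac _ h3 b hb, mul_inv_cancel_right]
    exact conj_mem_of_le_normalizer' h.SA hrS h3

/-- **Main theorem**: sections with operators are good -/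
theorem main (hsolv : ∀ L : Subgroup G, Odd (Nat.card L) → L ≠ ⊥ → ⁅L, L⁆ ≠ L) :
    ∀ n : ℕ, ∀ z : G, ∀ B A K S : Subgroup G, Act z B A K S → Nat.card B = n → Good z B A S := by
  intro n
  induction n using Nat.strong_induction_on with
  | _ n IH =>
  intro z B A K₀ S h₀ hn
  have ih : ∀ B' A' K' S' : Subgroup G, Act z B' A' K' S' → Nat.card B' < Nat.card B → Good z B' A' S' := by
    intro B' A' K' S' h' hlt
    exact IH _ (hn ▸ hlt) z B' A' K' S' h' rfl
  -- minimal `K`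
  let T := {K : Subgroup G // Act z B A K S}
  have hT : Nonempty T := ⟨⟨K₀, h₀⟩⟩
  obtain ⟨⟨K, h⟩, hmin⟩ := Finite.exists_min (fun K : T => Nat.card (K.1 : Subgroup G))
  have hmin' : ∀ N : Subgroup G, Act z B A N S → Nat.card K ≤ Nat.card N := fun N hN => hmin ⟨N, hN⟩
  by_contra hng
  have hp1 : ∀ X : Subgroup G, DD z A ≤ X → X ≤ B → X ≠ DD z A → K ≤ normalizer (X : Set G) →
      S ≤ normalizer (X : Set G) → X = B := by
    intro X hDX hXB hXD hKX hSX
    by_contra hXB'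
    exact hng (p1 h ih hDX hXB hXD hXB' hKX hSX)
  have hBD : B ≠ DD z A := fun heq => hng (good_of_eq h heq)
  have hm1 : ∀ N : Subgroup G, N ≤ K → K ≤ normalizer (N : Set G) → S ≤ normalizer (N : Set G) → N ≠ K →
      N ≤ CC h := fun N h1 h2 h3 h4 => m1 h hp1 hmin' h1 h2 h3 h4
  have hm2 := m2 h hBD
  have hK1 : K ≠ ⊥ := by
    rintro rfl
    exact hm2 (le_bot_iff.1 (CC_le h))
  have hab : ⁅K, K⁆ ≤ CC h := hm1 _ (commutator_le_left_of_le le_normalizer)
    (le_normalizer_commutator le_normalizer le_normalizer) (le_normalizer_commutator h.SK h.SK)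
    (hsolv K h.Kodd hK1)
  have c : Ctx h := ⟨hp1, hm1, hm2, hab, hBD⟩
  by_cases hc : ∃ x ∈ K, CC h ⊔ zpowers x = K
  · obtain ⟨x, hxK, hx⟩ := hc
    exact hng (cyc h c hxK hx)
  · push Not at hc
    exact hng (noncyc h c ih hc)

end Cfsg.Agent.Lib.ExSpG
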