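import Cfsg.Agent.Lib.ExSpB
import Cfsg.Agent.Lib.ProjRep
import Cfsg.Agent.Lib.LocBase
import Cfsg.Agent.Lib.SubgroupTools

set_option autoImplicit false
set_option linter.unusedSectionVars false

/-!
# From invariant primitive idempotents to extensions of characters (helper80)
-/

namespace Cfsg.Agent.Lib.ExSpH

open Subgroup Cfsg.Agent.Lib.ExSpA Cfsg.Agent.Lib.ExSpB Cfsg.Agent.Lib.ProjRep Cfsg.Agent.Lib.LocBase
  Cfsg.Agent.Lib.Clifford

universe u

variable {G : Type u} [Group G] [Finite G] {N S : Subgroup G} {d : ℕ}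

/-- evaluation of a group algebra element supported on `N` -/
noncomputable def Phi (σ : N →* GLd d) (P : MonoidAlgebra ℂ G) : (Fin d → ℂ) →ₗ[ℂ] (Fin d → ℂ) :=
  ∑ᶠ n : N, P.coeff (n : G) • ((σ n : GLd d) : (Fin d → ℂ) →ₗ[ℂ] (Fin d → ℂ))

theorem Phi_eq [Fintype N] (σ : N →* GLd d) (P : MonoidAlgebra ℂ G) :
    Phi σ P = ∑ n : N, P.coeff (n : G) • ((σ n : GLd d) : (Fin d → ℂ) →ₗ[ℂ] (Fin d → ℂ)) := by
  rw [Phi, finsum_eq_sum_of_fintype]

theorem Phi_add (σ : N →* GLd d) (P Q : MonoidAlgebra ℂ G) : Phi σ (P + Q) = Phi σ P + Phi σ Q := by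
  have := Fintype.ofFinite N
  rw [Phi_eq, Phi_eq, Phi_eq, ← Finset.sum_add_distrib]
  apply Finset.sum_congr rfl
  intro n _
  rw [MonoidAlgebra.coeff_add, Finsupp.add_apply, add_smul]

theorem Phi_smul (σ : N →* GLd d) (c : ℂ) (P : MonoidAlgebra ℂ G) : Phi σ (c • P) = c • Phi σ P := by
  have := Fintype.ofFinite N
  rw [Phi_eq, Phi_eq, Finset.smul_sum]
  apply Finset.sum_congr rfl
  intro n _
  rw [MonoidAlgebra.coeff_smul_apply, smul_smul, smul_eq_mul]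

theorem Phi_zero (σ : N →* GLd d) : Phi σ (0 : MonoidAlgebra ℂ G) = 0 := by
  have := Phi_smul σ 0 (0 : MonoidAlgebra ℂ G)
  rwa [zero_smul, zero_smul] at this

theorem Phi_u (σ : N →* GLd d) (n : N) : Phi σ (u (n : G)) = ((σ n : GLd d) : (Fin d → ℂ) →ₗ[ℂ] (Fin d → ℂ)) := by
  classical
  have := Fintype.ofFinite N
  rw [Phi_eq, Finset.sum_eq_single n]
  · rw [coeff_u, if_pos rfl, one_smul]
  · intro m _ hm
    rw [coeff_u, if_neg, zero_smul]
    intro h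
    exact hm (Subtype.ext h.symm)
  · intro h; exact absurd (Finset.mem_univ _) h

theorem Phi_mul (σ : N →* GLd d) {P Q : MonoidAlgebra ℂ G} (hP : P ∈ sp N) (hQ : Q ∈ sp N) :
    Phi σ (P * Q) = Phi σ P * Phi σ Q := by
  refine sp_induction (p := fun P => Phi σ (P * Q) = Phi σ P * Phi σ Q) ?_ ?_ ?_ ?_ hP
  · intro b hb
    refine sp_induction (p := fun Q => Phi σ (u b * Q) = Phi σ (u b) * Phi σ Q) ?_ ?_ ?_ ?_ hQ
    · intro c hc
      have h1 : (u b * u c : MonoidAlgebra ℂ G) = u (((⟨b, hb⟩ * ⟨c, hc⟩ : N)) : G) := by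
        rw [u, u, ← map_mul]; rfl
      rw [h1, Phi_u, Phi_u σ ⟨b, hb⟩, Phi_u σ ⟨c, hc⟩, map_mul, Units.val_mul]
    · rw [mul_zero, Phi_zero, mul_zero]
    · intro x y hx hy; rw [mul_add, Phi_add, Phi_add, hx, hy, mul_add]
    · intro c x hx; rw [mul_smul_comm, Phi_smul, Phi_smul, hx, mul_smul_comm]
  · rw [zero_mul, Phi_zero, zero_mul]
  · intro x y hx hy; rw [add_mul, Phi_add, Phi_add, hx, hy, add_mul]
  · intro c x hx; rw [smul_mul_assoc, Phi_smul, Phi_smul, hx, smul_mul_assoc]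

/-- conjugation -/
theorem Phi_conj [hN : N.Normal] (σ : N →* GLd d) {s : G} {T : GLd d} (hT : (s, T) ∈ Gam σ)
    {P : MonoidAlgebra ℂ G} (hs : u s * P = P * u s) :
    (T : (Fin d → ℂ) →ₗ[ℂ] (Fin d → ℂ)) * Phi σ P = Phi σ P * (T : (Fin d → ℂ) →ₗ[ℂ] (Fin d → ℂ)) := by
  have := Fintype.ofFinite N
  rw [Phi_eq, Finset.mul_sum, Finset.sum_mul]
  rw [← Equiv.sum_comp (MulAut.conjNormal s : N ≃* N).toEquiv
    (fun n : N => (P.coeff (n : G) • ((σ n : GLd d) : (Fin d → ℂ) →ₗ[ℂ] (Fin d → ℂ))) * (T : (Fin d → ℂ) →ₗ[ℂ] (Fin d → ℂ)))]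
  apply Finset.sum_congr rfl
  intro n _
  have h1 : P.coeff ((MulAut.conjNormal s n : N) : G) = P.coeff (n : G) := by
    have h2 := congrArg (fun Q : MonoidAlgebra ℂ G => Q.coeff (s * (n : G))) hs
    simp only [coeff_u_mul, coeff_mul_u] at h2
    rw [inv_mul_cancel_left] at h2
    rw [MulAut.conjNormal_apply]
    exact h2.symm
  have h2 := mem_Gam.mp hT n
  simp only at h2
  rw [mul_inv_eq_iff_eq_mul] at h2
  have h3 := congrArg (fun U : GLd d => (U : (Fin d → ℂ) →ₗ[ℂ] (Fin d → ℂ))) h2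
  simp only [Units.val_mul] at h3
  rw [mul_smul_comm, h3]
  change _ = (P.coeff ((MulAut.conjNormal s n : N) : G) • ((σ (MulAut.conjNormal s n) : GLd d) : (Fin d → ℂ) →ₗ[ℂ] (Fin d → ℂ))) * _
  rw [h1, smul_mul_assoc]

/-- the fixed line -/
theorem exists_line (σ : N →* GLd d)
    (hirr : Representation.IsIrreducible
      ((Units.coeHom _).comp σ : Representation ℂ N (Fin d → ℂ)))
    {z : G} (hzc : ∀ g : G, z * g = g * z) (hz2 : z * z = 1) (hzN : z ∈ N) (hz1 : z ≠ 1)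
    (hσz : ∀ v, ((σ ⟨z, hzN⟩ : GLd d) : (Fin d → ℂ) →ₗ[ℂ] (Fin d → ℂ)) v = - v)
    (hcen : ∀ b ∈ N, b ≠ 1 → b ≠ z → ∃ c ∈ N, b * c = z * (c * b))
    {P : MonoidAlgebra ℂ G} (hP : GP z N ⊥ P) :
    ∃ w : Fin d → ℂ, w ≠ 0 ∧ Phi σ P w = w ∧ ∀ v, ∃ a : ℂ, Phi σ P v = a • w := by
  classical
  have := Fintype.ofFinite N
  set ρ : Representation ℂ N (Fin d → ℂ) := (Units.coeHom _).comp σ with hρ
  have hirr' := hirr
  have hnt : Nontrivial (Fin d → ℂ) := CharCentral.nontrivial_of_irreducible ρ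
  have hd : d ≠ 0 := by
    rintro rfl
    obtain ⟨v, hv⟩ := exists_ne (0 : Fin 0 → ℂ)
    exact hv (Subsingleton.elim _ _)
  set Q := Phi σ P with hQ
  have hQQ : Q * Q = Q := by rw [hQ, ← Phi_mul σ hP.mem hP.mem, hP.idem]
  have hprim : ∀ n : N, ∃ c : ℂ, Q * ρ n * Q = c • Q := by
    intro n
    obtain ⟨c, hc⟩ := hP.prim n n.2
    refine ⟨c, ?_⟩
    have h1 : ρ n = Phi σ (u (n : G)) := (Phi_u σ n).symm
    rw [h1, hQ, ← Phi_mul σ hP.mem (u_mem n.2), ← Phi_mul σ (sp_mul hP.mem (u_mem n.2)) hP.mem, hc, Phi_smul]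
  have hzN' : ∀ v, ρ ⟨z, hzN⟩ v = - v := hσz
  -- trace
  have htr : LinearMap.trace ℂ _ Q ≠ 0 := by
    have h1 : LinearMap.trace ℂ _ Q = ∑ n : N, P.coeff (n : G) * ρ.character n := by
      rw [hQ, Phi_eq, map_sum]
      apply Finset.sum_congr rfl
      intro n _
      rw [map_smul, smul_eq_mul]
      rfl
    have hvan : ∀ n : N, n ≠ 1 → n ≠ ⟨z, hzN⟩ → ρ.character n = 0 := by
      intro n hn1 hnz
      obtain ⟨c, hc, hbc⟩ := hcen n n.2 (fun h => hn1 (Subtype.ext h)) (fun h => hnz (Subtype.ext h))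
      exact char_eq_zero (ρ := ρ) (z := ⟨z, hzN⟩) hzN' (c := n) (x := ⟨c, hc⟩) (Subtype.ext hbc)
    have hne : (1 : N) ≠ ⟨z, hzN⟩ := by
      intro h
      exact hz1 (congrArg Subtype.val h).symm
    have h2 : ∑ n : N, P.coeff (n : G) * ρ.character n =
        ∑ n ∈ ({1, ⟨z, hzN⟩} : Finset N), P.coeff (n : G) * ρ.character n := by
      symm
      apply Finset.sum_subset (Finset.subset_univ _)
      intro n _ hn
      simp only [Finset.mem_insert, Finset.mem_singleton, not_or] at hn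
      rw [hvan n hn.1 hn.2, mul_zero]
    have hc1 : ρ.character 1 = d := by
      rw [Representation.char_one]
      simp
    have hcz : ρ.character ⟨z, hzN⟩ = - (d : ℂ) := by
      have h3 : ρ ⟨z, hzN⟩ = - ρ 1 := by
        apply LinearMap.ext
        intro v
        rw [hzN' v, map_one]; rfl
      change LinearMap.trace ℂ _ (ρ _) = _
      rw [h3, map_neg]
      change - ρ.character 1 = _
      rw [hc1]
    have hPz : P.coeff z = - P.coeff 1 := by
      have := hP.coeff_neg hzc hz2 1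
      rwa [one_mul] at this
    rw [h1, h2, Finset.sum_pair hne, hc1, hcz]
    change P.coeff 1 * (d : ℂ) + P.coeff z * (- (d : ℂ)) ≠ 0
    rw [hPz]
    have h4 : P.coeff 1 * (d : ℂ) + -P.coeff 1 * (- (d : ℂ)) = 2 * (P.coeff 1 * d) := by ring
    rw [h4]
    exact mul_ne_zero two_ne_zero (mul_ne_zero hP.ne (Nat.cast_ne_zero.mpr hd))
  have hQ0 : Q ≠ 0 := by
    intro h
    rw [h, map_zero] at htr
    exact htr rfl
  obtain ⟨v₀, hv₀⟩ : ∃ v, Q v ≠ 0 := by
    by_contra hcon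
    push Not at hcon
    exact hQ0 (LinearMap.ext hcon)
  set w := Q v₀ with hw
  have hQw : Q w = w := by
    have := congrArg (fun f => f v₀) hQQ
    exact this
  refine ⟨w, hv₀, hQw, fun v => ?_⟩
  obtain ⟨g, hg⟩ : ∃ g : (Fin d → ℂ) →ₗ[ℂ] ℂ, g w = 1 := by
    obtain ⟨i, hi⟩ := Function.ne_iff.mp hv₀
    refine ⟨(w i)⁻¹ • LinearMap.proj i, ?_⟩
    rw [LinearMap.smul_apply, LinearMap.proj_apply, smul_eq_mul]
    exact inv_mul_cancel₀ hi
  have hsch := schur (ρ := ρ) hirr' g v w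
  rw [hg, mul_one] at hsch
  have hN0 : (Nat.card N : ℂ) / d ≠ 0 :=
    div_ne_zero (Nat.cast_ne_zero.mpr Nat.card_pos.ne') (Nat.cast_ne_zero.mpr hd)
  choose cc hcc using hprim
  refine ⟨((Nat.card N : ℂ) / d)⁻¹ * ∑ n : N, g (ρ n⁻¹ v) * cc n, ?_⟩
  have h1 : Q v = ((Nat.card N : ℂ) / d)⁻¹ • Q (((Nat.card N : ℂ) / d) • v) := by
    rw [map_smul, smul_smul, inv_mul_cancel₀ hN0, one_smul]
  rw [h1, ← hsch, map_sum, mul_smul, Finset.sum_smul]
  congr 1
  apply Finset.sum_congr rfl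
  intro n _
  rw [map_smul, mul_smul]
  congr 1
  have h2 := congrArg (fun f => f w) (hcc n)
  simp only [Module.End.mul_apply, LinearMap.smul_apply, hQw] at h2
  exact h2

/-- **Extension to `N ⋊ S`** -/
theorem extend_of_good [hN : N.Normal] (hNS : N ⊓ S = ⊥) {z : G} (hzN : z ∈ N) (hz2 : z * z = 1)
    (hzc : ∀ g : G, z * g = g * z) (hz1 : z ≠ 1)
    (hcen : ∀ b ∈ N, b ≠ 1 → b ≠ z → ∃ c ∈ N, b * c = z * (c * b)) (hgood : Good z N ⊥ S)
    {θ : N → ℂ} (hθ : IsIrrCharacter N θ) (hθz : θ ⟨z, hzN⟩ ≠ θ 1) (hinv : ∀ g : G, cj N g θ = θ) :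
    ∃ χ : ↥(N ⊔ S) → ℂ, IsIrrCharacter ↥(N ⊔ S) χ ∧ ∀ n : N, χ ⟨n, mem_sup_left n.2⟩ = θ n := by
  classical
  obtain ⟨d, σ, hirr, rfl⟩ := exists_sigma hθ
  obtain ⟨P, hP, hPS⟩ := hgood
  have hex := exists_mem_Gam hirr hinv
  set ρ : Representation ℂ N (Fin d → ℂ) := (Units.coeHom _).comp σ with hρ
  have hirr' := hirr
  have hnt : Nontrivial (Fin d → ℂ) := CharCentral.nontrivial_of_irreducible ρ
  have hd : d ≠ 0 := by
    rintro rfl
    obtain ⟨v, hv⟩ := exists_ne (0 : Fin 0 → ℂ)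
    exact hv (Subsingleton.elim _ _)
  -- `z` acts as `-1`
  have hσz : ∀ v, ρ ⟨z, hzN⟩ v = - v := by
    obtain ⟨c, hc⟩ := CharCentral.exists_scalar_of_commute ρ (ρ ⟨z, hzN⟩) (by
      intro g v
      have h1 : ρ ⟨z, hzN⟩ * ρ g = ρ g * ρ ⟨z, hzN⟩ := by
        rw [← map_mul, ← map_mul]
        congr 1
        exact Subtype.ext (hzc g)
      exact congrArg (fun f => f v) h1)
    have hc2 : c * c = 1 := by
      have h1 : ρ ⟨z, hzN⟩ * ρ ⟨z, hzN⟩ = 1 := by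
        rw [← map_mul, show (⟨z, hzN⟩ : N) * ⟨z, hzN⟩ = 1 from Subtype.ext hz2, map_one]
      rw [hc] at h1
      obtain ⟨v, hv⟩ := exists_ne (0 : Fin d → ℂ)
      have h2 := congrArg (fun f => f v) h1
      simp only [Module.End.mul_apply, LinearMap.smul_apply, LinearMap.id_apply, smul_smul, Module.End.one_apply] at h2
      have h3 : (c * c - 1) • v = 0 := by rw [sub_smul, h2, one_smul, sub_self]
      rcases smul_eq_zero.mp h3 with h | h
      · exact sub_eq_zero.mp h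
      · exact absurd h hv
    have hc1 : c ≠ 1 := by
      rintro rfl
      apply hθz
      have h1 : ρ ⟨z, hzN⟩ = ρ 1 := by
        rw [hc, map_one, one_smul]; rfl
      change LinearMap.trace ℂ _ (ρ _) = LinearMap.trace ℂ _ (ρ _)
      rw [h1]
    have hcm : c = -1 := by
      have h1 : (c - 1) * (c + 1) = 0 := by
        have : (c - 1) * (c + 1) = c * c - 1 := by ring
        rw [this, hc2, sub_self]
      rcases mul_eq_zero.mp h1 with h | h
      · exact absurd (sub_eq_zero.mp h) hc1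
      · exact eq_neg_of_add_eq_zero_left h
    intro v
    rw [hc, hcm, LinearMap.smul_apply, neg_smul, one_smul]
    rfl
  obtain ⟨w, hw0, hQw, hline⟩ := exists_line σ hirr hzc hz2 hzN hz1 hσz hcen hP
  -- the stabilizer of `w` in `Γ`
  let L0 : Subgroup (G × GLd d) :=
    { carrier := {x | x ∈ Gam σ ∧ x.1 ∈ S ∧ (x.2 : (Fin d → ℂ) →ₗ[ℂ] (Fin d → ℂ)) w = w}
      one_mem' := ⟨one_mem _, one_mem _, by simp⟩
      mul_mem' := by
        rintro x y ⟨hx, hx1, hx2⟩ ⟨hy, hy1, hy2⟩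
        refine ⟨mul_mem hx hy, mul_mem hx1 hy1, ?_⟩
        rw [Prod.snd_mul, Units.val_mul, Module.End.mul_apply, hy2, hx2]
      inv_mem' := by
        rintro x ⟨hx, hx1, hx2⟩
        refine ⟨inv_mem hx, inv_mem hx1, ?_⟩
        have h1 : ((x.2⁻¹ : GLd d) : (Fin d → ℂ) →ₗ[ℂ] (Fin d → ℂ)) ((x.2 : (Fin d → ℂ) →ₗ[ℂ] (Fin d → ℂ)) w) = w := by
          rw [← Module.End.mul_apply, ← Units.val_mul, inv_mul_cancel]; rfl
        rw [hx2] at h1
        exact h1 }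
  let Nh : Subgroup (G × GLd d) := (MonoidHom.prod N.subtype σ).range
  have hNhGam : Nh ≤ Gam σ := by
    rintro _ ⟨n, rfl⟩
    exact hat_mem_Gam σ n
  have hnorm : L0 ≤ normalizer (Nh : Set (G × GLd d)) := by
    rw [le_normalizer_iff]
    rintro ⟨g, T⟩ ⟨hx, -, -⟩ _ ⟨n, rfl⟩
    refine ⟨MulAut.conjNormal g n, ?_⟩
    have h1 := mem_Gam.mp hx n
    simp only at h1
    apply Prod.ext
    · simp
    · change σ (MulAut.conjNormal g n) = T * σ n * T⁻¹
      exact h1.symm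
  have hLmem : ∀ x, x ∈ Nh ⊔ L0 ↔ ∃ n : N, ∃ y ∈ L0, ((n : G), σ n) * y = x := by
    intro x
    rw [SubgroupTools.mem_sup_of_le_normalizer hnorm]
    constructor
    · rintro ⟨_, ⟨n, rfl⟩, y, hy, rfl⟩
      exact ⟨n, y, hy, rfl⟩
    · rintro ⟨n, y, hy, rfl⟩
      exact ⟨_, ⟨n, rfl⟩, y, hy, rfl⟩
  -- elements of `S` occur
  have hS : ∀ s ∈ S, ∃ T : GLd d, (s, T) ∈ L0 := by
    intro s hs
    obtain ⟨T, hT⟩ := hex s
    have h1 := Phi_conj σ hT (hPS s hs)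
    have h2 := congrArg (fun f => f w) h1
    simp only [Module.End.mul_apply, hQw] at h2
    obtain ⟨a, ha⟩ := hline ((T : (Fin d → ℂ) →ₗ[ℂ] (Fin d → ℂ)) w)
    rw [ha] at h2
    have ha0 : a ≠ 0 := by
      rintro rfl
      rw [zero_smul] at h2
      apply hw0
      have h3 : ((T⁻¹ : GLd d) : (Fin d → ℂ) →ₗ[ℂ] (Fin d → ℂ)) ((T : (Fin d → ℂ) →ₗ[ℂ] (Fin d → ℂ)) w) = w := by
        rw [← Module.End.mul_apply, ← Units.val_mul, inv_mul_cancel]; rfl
      rw [h2, map_zero] at h3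
      exact h3.symm
    refine ⟨sc d (Units.mk0 a ha0)⁻¹ * T, ?_, hs, ?_⟩
    · have h3 := mul_mem (sc_mem_Gam σ (Units.mk0 a ha0)⁻¹) hT
      have h4 : ((1 : G), sc d (Units.mk0 a ha0)⁻¹) * (s, T) = (s, sc d (Units.mk0 a ha0)⁻¹ * T) := by
        apply Prod.ext
        · exact one_mul s
        · rfl
      rwa [h4] at h3
    · change ((sc d (Units.mk0 a ha0)⁻¹ * T : GLd d) : (Fin d → ℂ) →ₗ[ℂ] (Fin d → ℂ)) w = w
      rw [Units.val_mul, Module.End.mul_apply, h2, sc_coe, LinearMap.smul_apply, LinearMap.id_apply, smul_smul]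
      have : (((Units.mk0 a ha0)⁻¹ : ℂˣ) : ℂ) * a = 1 := by
        rw [Units.val_inv_eq_inv_val, Units.val_mk0, inv_mul_cancel₀ ha0]
      rw [this, one_smul]
  have hone : ∀ T : GLd d, ((1 : G), T) ∈ Nh ⊔ L0 → T = 1 := by
    intro T hT
    obtain ⟨n, ⟨s, T'⟩, ⟨hy, hsS, hyw⟩, heq⟩ := (hLmem _).1 hT
    have h1 : (n : G) * s = 1 := congrArg Prod.fst heq
    have h2 : σ n * T' = T := congrArg Prod.snd heq
    have h3 : s ∈ N ⊓ S := by
      refine mem_inf.2 ⟨?_, hsS⟩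
      rw [eq_inv_of_mul_eq_one_right h1]
      exact inv_mem n.2
    rw [hNS, mem_bot] at h3
    simp only at hyw
    subst h3
    have h4 : n = 1 := by
      apply Subtype.ext
      rw [mul_one] at h1
      exact h1
    subst h4
    rw [map_one, one_mul] at h2
    subst h2
    obtain ⟨c, hc⟩ := Gam_unique hirr (Subgroup.one_mem (Gam σ)) hy
    change T' = sc d c * 1 at hc
    rw [mul_one] at hc
    rw [hc, sc_coe, LinearMap.smul_apply, LinearMap.id_apply] at hyw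
    have hc1 : (c : ℂ) = 1 := by
      have h5 : ((c : ℂ) - 1) • w = 0 := by rw [sub_smul, hyw, one_smul, sub_self]
      rcases smul_eq_zero.mp h5 with h | h
      · exact sub_eq_zero.mp h
      · exact absurd h hw0
    have : c = 1 := Units.ext hc1
    rw [hc, this, map_one]
  -- pass to `N ⊔ S`
  set M : Subgroup G := N ⊔ S with hM
  have hNM : N ≤ M := le_sup_left
  have hNSn : S ≤ normalizer (N : Set G) := by
    rw [normalizer_eq_top_iff.2 hN]; exact le_top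
  let N' : Subgroup M := N.subgroupOf M
  have hN' : N'.Normal := normal_subgroupOf_of_le_normalizer (by rw [normalizer_eq_top_iff.2 hN]; exact le_top)
  let e : N' ≃* N := Subgroup.subgroupOfEquivOfLe hNM
  let σ' : N' →* GLd d := σ.comp e.toMonoidHom
  let j : M × GLd d →* G × GLd d := MonoidHom.prodMap M.subtype (MonoidHom.id _)
  obtain ⟨R, hRL, hRN⟩ := extend_of_complement (N := N') σ' ((Nh ⊔ L0).comap j) (by
    rintro ⟨g, hg⟩
    rw [hM, SubgroupTools.mem_sup_of_le_normalizer hNSn] at hg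
    obtain ⟨n, hn, s, hs, rfl⟩ := hg
    obtain ⟨T, hT⟩ := hS s hs
    refine ⟨σ ⟨n, hn⟩ * T, ?_⟩
    rw [mem_comap, hLmem]
    exact ⟨⟨n, hn⟩, (s, T), hT, rfl⟩) (by
    intro T hT
    exact hone T hT) (by
    intro n
    rw [mem_comap]
    exact mem_sup_left ⟨e n, rfl⟩)
  have hirr2 : Representation.IsIrreducible ((Units.coeHom _).comp σ' : Representation ℂ N' (Fin d → ℂ)) :=
    CharBasic.isIrreducible_comp_of_surjective ρ _ e.surjective hirr
  obtain ⟨χ, hχ, hres⟩ := char_of_extension hirr2 R hRN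
  refine ⟨χ, hχ, fun n => ?_⟩
  exact hres ⟨⟨n, hNM n.2⟩, n.2⟩

end Cfsg.Agent.Lib.ExSpH
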