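import Cfsg.Agent.Lib.ExSpG
import Cfsg.Agent.Lib.ExSpH
import Cfsg.Agent.Lib.ExtraOrd
import Cfsg.Agent.Lib.ScalarDeg
import Cfsg.Agent.Lib.H76Ext

set_option autoImplicit false
set_option linter.unusedSectionVars false

/-!
# The faithful character of an extraspecial group with operators (helper80)
-/

namespace Cfsg.Agent.Lib.ExSpI

open Subgroup Cfsg.Agent.Lib.ExSpA Cfsg.Agent.Lib.ExSpB Cfsg.Agent.Lib.ProjRep Cfsg.Agent.Lib.LocBase
  Cfsg.Agent.Lib.Clifford Cfsg.Agent.Lib.ExSpC Cfsg.Agent.Lib.ExSpH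
open scoped commutatorElement

universe u

variable {G : Type u} [Group G] [Finite G]

/-- `ρ z = -1` -/
theorem z_neg {C : Type*} [Group C] {d : ℕ} {ρ : Representation ℂ C (Fin d → ℂ)} (hρ : ρ.IsIrreducible)
    {z : C} (hzc : ∀ g : C, z * g = g * z) (hz2 : z * z = 1) (hθ : ρ.character z ≠ ρ.character 1) :
    ∀ v, ρ z v = - v := by
  have hirr := hρ
  have hnt : Nontrivial (Fin d → ℂ) := CharCentral.nontrivial_of_irreducible ρ
  obtain ⟨c, hc⟩ := CharCentral.exists_scalar_of_commute ρ (ρ z) (by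
    intro g v
    have h1 : ρ z * ρ g = ρ g * ρ z := by
      rw [← map_mul, ← map_mul, hzc]
    exact congrArg (fun f => f v) h1)
  have hc2 : c * c = 1 := by
    have h1 : ρ z * ρ z = 1 := by
      rw [← map_mul, hz2, map_one]
    rw [hc] at h1
    obtain ⟨v, hv⟩ := exists_ne (0 : Fin d → ℂ)
    have h2 := congrArg (fun f => f v) h1
    simp only [Module.End.mul_apply, LinearMap.smul_apply, LinearMap.id_apply, smul_smul, Module.End.one_apply] at h2
    have h3 : (c * c - 1) • v = 0 := by rw [sub_smul, h2, one_smul, sub_self]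
    rcases smul_eq_zero.mp h3 with h | h
    · exact sub_eq_zero.mp h
    · exact absurd h hv
  have hc1 : c ≠ 1 := by
    rintro rfl
    apply hθ
    have h1 : ρ z = ρ 1 := by
      rw [hc, map_one, one_smul]; rfl
    change LinearMap.trace ℂ _ (ρ _) = LinearMap.trace ℂ _ (ρ _)
    rw [h1]
  have hcm : c = -1 := by
    have h1 : (c - 1) * (c + 1) = 0 := by
      have : (c - 1) * (c + 1) = c * c - 1 := by ring
      rw [this, hc2, sub_self]
    rcases mul_eq_zero.mp h1 with h | h
    · exact absurd (sub_eq_zero.mp h) hc1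
    · exact eq_neg_of_add_eq_zero_left h
  intro v
  rw [hc, hcm, LinearMap.smul_apply, neg_smul, one_smul]
  rfl

theorem van {C : Type*} [Group C] [Finite C] {θ : C → ℂ} (hθ : IsIrrCharacter C θ)
    {z : C} (hzc : ∀ g : C, z * g = g * z) (hz2 : z * z = 1) (hne : θ z ≠ θ 1)
    {c x : C} (h : c * x = z * (x * c)) : θ c = 0 := by
  obtain ⟨d, ρ, hρ, rfl⟩ := hθ
  exact char_eq_zero (z_neg hρ hzc hz2 hne) h

/-- the data of an extraspecial normal subgroup -/
structure ES (E : Subgroup G) (z : G) : Prop where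
  zE : z ∈ E
  z1 : z ≠ 1
  z2 : z * z = 1
  zc : ∀ g : G, z * g = g * z
  sq : ∀ b ∈ E, b * b = 1 ∨ b * b = z
  com : ∀ b ∈ E, ∀ c ∈ E, b * c = c * b ∨ b * c = z * (c * b)
  cen : ∀ b ∈ E, (∀ c ∈ E, b * c = c * b) → b = 1 ∨ b = z

theorem exists_z (E : Subgroup G) [hEn : E.Normal] (hE : IsExtraspecial 2 ↥E) : ∃ z, ES E z := by
  have hf : Fact (Nat.Prime 2) := ⟨Nat.prime_two⟩
  have hc := hE.2
  obtain ⟨z, w, hzw, hun⟩ := Nat.card_eq_two_iff.mp hc
  have hex : ∃ y : center ↥E, y ≠ 1 ∧ ∀ x : center ↥E, x = 1 ∨ x = y := by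
    by_cases h : z = 1
    · refine ⟨w, fun h' => hzw (h.trans h'.symm), fun x => ?_⟩
      have : x ∈ ({z, w} : Set (center ↥E)) := by rw [hun]; trivial
      rcases this with h' | h'
      · left; rw [h', h]
      · right; exact h'
    · refine ⟨z, h, fun x => ?_⟩
      have h1 : (1 : center ↥E) ∈ ({z, w} : Set (center ↥E)) := by rw [hun]; trivial
      have : x ∈ ({z, w} : Set (center ↥E)) := by rw [hun]; trivial
      have hw : (1 : center ↥E) = w := by
        rcases h1 with h' | h'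
        · exact absurd h'.symm h
        · exact h'
      rcases this with h' | h'
      · right; exact h'
      · left; rw [hw]; exact h'
  obtain ⟨y, hy1, hy⟩ := hex
  have hcenter : ∀ b : ↥E, b ∈ center ↥E → (b : G) = 1 ∨ (b : G) = (y : ↥E) := by
    intro b hb
    rcases hy ⟨b, hb⟩ with h | h
    · left
      have : b = 1 := congrArg Subtype.val h
      rw [this]; rfl
    · right
      have : b = (y : ↥E) := congrArg Subtype.val h
      rw [this]
  have hyG1 : ((y : ↥E) : G) ≠ 1 := by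
    intro h
    exact hy1 (Subtype.ext (Subtype.ext h))
  have hyc : ∀ g : G, ((y : ↥E) : G) * g = g * ((y : ↥E) : G) := by
    intro g
    have hmem : (⟨g * ((y : ↥E) : G) * g⁻¹, hEn.conj_mem _ (y : ↥E).2 g⟩ : ↥E) ∈ center ↥E := by
      rw [mem_center_iff]
      rintro ⟨b, hb⟩
      apply Subtype.ext
      change b * (g * ((y : ↥E) : G) * g⁻¹) = (g * ((y : ↥E) : G) * g⁻¹) * b
      have h1 := mem_center_iff.1 y.2 ⟨g⁻¹ * b * g, by
        have := hEn.conj_mem b hb g⁻¹
        rwa [inv_inv] at this⟩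
      have h2 : g⁻¹ * b * g * ((y : ↥E) : G) = ((y : ↥E) : G) * (g⁻¹ * b * g) := congrArg Subtype.val h1
      calc b * (g * ((y : ↥E) : G) * g⁻¹) = g * (g⁻¹ * b * g * ((y : ↥E) : G)) * g⁻¹ := by group
        _ = _ := by rw [h2]; group
    rcases hcenter _ hmem with h | h
    · exfalso
      apply hyG1
      have h' : g * ((y : ↥E) : G) * g⁻¹ = 1 := h
      have h3 : ((y : ↥E) : G) = g⁻¹ * (g * ((y : ↥E) : G) * g⁻¹) * g := by group
      rw [h3, h']; group
    · have h' : g * ((y : ↥E) : G) * g⁻¹ = ((y : ↥E) : G) := h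
      calc ((y : ↥E) : G) * g = (g * ((y : ↥E) : G) * g⁻¹) * g := by rw [h']
        _ = g * ((y : ↥E) : G) := by group
  have hy2 : ((y : ↥E) : G) * ((y : ↥E) : G) = 1 := by
    rcases hy (y * y) with h | h
    · exact congrArg (fun t : center ↥E => ((t : ↥E) : G)) h
    · exfalso
      apply hy1
      have : y * y = y * 1 := by rw [h, mul_one]
      exact mul_left_cancel this
  refine ⟨((y : ↥E) : G), (y : ↥E).2, hyG1, hy2, hyc, ?_, ?_, ?_⟩
  · intro b hb
    have h1 := ExtraOrd.pow_mem_center hE (⟨b, hb⟩ : ↥E)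
    have h2 := hcenter _ h1
    have h3 : (((⟨b, hb⟩ : ↥E) ^ 2 : ↥E) : G) = b * b := by
      rw [pow_two]; rfl
    rw [h3] at h2
    exact h2
  · intro b hb c hc
    have h1 := ExtraOrd.comm_mem_center hE (⟨b, hb⟩ : ↥E) ⟨c, hc⟩
    have h2 := hcenter _ h1
    have h3 : ((⁅(⟨b, hb⟩ : ↥E), (⟨c, hc⟩ : ↥E)⁆ : ↥E) : G) = b * c * b⁻¹ * c⁻¹ := rfl
    rw [h3] at h2
    rcases h2 with h | h
    · left
      have : b * c = (b * c * b⁻¹ * c⁻¹) * (c * b) := by group
      rw [this, h, one_mul]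
    · right
      have : b * c = (b * c * b⁻¹ * c⁻¹) * (c * b) := by group
      rw [this, h]
  · intro b hb hbc
    apply hcenter ⟨b, hb⟩
    rw [mem_center_iff]
    rintro ⟨c, hc⟩
    exact Subtype.ext (hbc c hc).symm

variable {E H K : Subgroup G} {z : G}

/-- `C_E(K) = Z(E)` -/
theorem fpf (e : ES E z) (hEK : ⁅E, K⁆ = E) {b : G} (hb : b ∈ E) (hbK : ∀ k ∈ K, k * b = b * k) :
    b = 1 ∨ b = z := by
  apply e.cen b hb
  set X := E ⊓ centralizer (K : Set G) with hX
  have h1 : ⁅⁅X, E⁆, K⁆ = ⊥ := by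
    rw [commutator_eq_bot_iff_le_centralizer]
    have h2 : ⁅X, E⁆ ≤ zpowers z := by
      rw [commutator_le]
      intro x hx b hb
      rw [commutatorElement_def]
      rcases e.com x hx.1 b hb with h3 | h3
      · rw [h3]; simp
      · rw [h3]
        have : z * (b * x) * x⁻¹ * b⁻¹ = z := by group
        rw [this]
        exact mem_zpowers z
    refine h2.trans ?_
    rw [zpowers_le]
    exact mem_centralizer_iff.2 fun y _ => (e.zc y).symm
  have h2 : ⁅⁅K, X⁆, E⁆ = ⊥ := by
    have h3 : ⁅K, X⁆ = ⊥ := by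
      rw [commutator_comm, commutator_eq_bot_iff_le_centralizer]
      exact inf_le_right
    rw [h3, commutator_bot_left]
  have h3 : ⁅⁅E, K⁆, X⁆ = ⊥ := CoprimeAction2.commutator_commutator_eq_bot h2 (X := K) (Y := X) (Z := E) h1
  rw [hEK, commutator_eq_bot_iff_le_centralizer] at h3
  intro c hc
  exact mem_centralizer_iff.1 (h3 hc) b ⟨hb, mem_centralizer_iff.2 hbK⟩

theorem act (e : ES E z) [hEn : E.Normal] (hEK : ⁅E, K⁆ = E) (hKodd : Odd (Nat.card K)) {S : Subgroup G}
    (hS : IsPGroup 2 S) (hSK : S ≤ normalizer (K : Set G)) : Act z E ⊥ K S :=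
  { zc := e.zc
    z2 := e.z2
    zB := e.zE
    zA := fun h => e.z1 (mem_bot.1 h)
    AB := bot_le
    Ac := by
      intro a ha b _
      rw [mem_bot.1 ha, one_mul, mul_one]
    sq := e.sq
    com := e.com
    cen := fun b hb hc => by
      rcases e.cen b hb hc with h | h
      · left; exact mem_bot.2 h
      · right; rw [h]; exact mem_bot.2 e.z2
    KA := by rw [normalizer_eq_top_iff.2 (inferInstance : (⊥ : Subgroup G).Normal)]; exact le_top
    KB := by rw [normalizer_eq_top_iff.2 hEn]; exact le_top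
    SA := by rw [normalizer_eq_top_iff.2 (inferInstance : (⊥ : Subgroup G).Normal)]; exact le_top
    SB := by rw [normalizer_eq_top_iff.2 hEn]; exact le_top
    SK := hSK
    Kodd := hKodd
    S2 := hS
    fpf := fun b hb hk => by
      rcases fpf e hEK hb hk with h | h
      · left; exact mem_bot.2 h
      · right; rw [h]; exact mem_bot.2 e.z2 }

/-- index of `E R` -/
theorem index_cop [hEn : E.Normal] (hEH : E ⊓ H = ⊥) (hEHtop : E ⊔ H = ⊤) {p : ℕ} [hp : Fact p.Prime]
    (R : Sylow p ↥H) : Nat.Coprime (E ⊔ (R : Subgroup ↥H).map H.subtype).index p := by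
  have hnE : ∀ X : Subgroup G, X ≤ normalizer (E : Set G) := by
    intro X; rw [normalizer_eq_top_iff.2 hEn]; exact le_top
  set R' := (R : Subgroup ↥H).map H.subtype with hR'
  have hR'H : R' ≤ H := map_subtype_le _
  have h1 := SubgroupTools.card_sup_mul_card_inf (hnE H)
  have h2 := SubgroupTools.card_sup_mul_card_inf (hnE R')
  have h3 : E ⊓ R' = ⊥ := by
    rw [eq_bot_iff, ← hEH]
    exact inf_le_inf_left E hR'H
  rw [hEH, hEHtop, card_bot, mul_one, card_top] at h1
  rw [h3, card_bot, mul_one] at h2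
  have h4 := Subgroup.card_mul_index (E ⊔ R')
  rw [h2, h1] at h4
  have h5 : Nat.card R' = Nat.card R := Subgroup.card_map_of_injective H.subtype_injective
  have h6 := Subgroup.card_mul_index (R : Subgroup ↥H)
  rw [h5, ← h6] at h4
  have hE0 : 0 < Nat.card E := Nat.card_pos
  have hR0 : 0 < Nat.card R := Nat.card_pos
  have h7 : (E ⊔ R').index = (R : Subgroup ↥H).index := by
    have h8 : (Nat.card E * Nat.card R) * (E ⊔ R').index = (Nat.card E * Nat.card R) * (R : Subgroup ↥H).index := by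
      rw [h4]

      rw [mul_assoc]
    exact Nat.eq_of_mul_eq_mul_left (Nat.mul_pos hE0 hR0) h8
  rw [h7]
  exact ((Nat.Prime.coprime_iff_not_dvd hp.out).2 R.not_dvd_index).symm

/-- **S4759** -/
theorem main (hodd : ∀ L : Subgroup G, Odd (Nat.card L) → L ≠ ⊥ → ⁅L, L⁆ ≠ L)
    [hEn : E.Normal] (hE : IsExtraspecial 2 ↥E) (hEH : E ⊓ H = ⊥) (hEHtop : E ⊔ H = ⊤)
    (hKn : ∀ h ∈ H, ∀ k ∈ K, h * k * h⁻¹ ∈ K) (hKodd : Odd (Nat.card ↥K)) (hEK : ⁅E, K⁆ = E)
    {θ : ↥E → ℂ} (hθ : IsIrrCharacter ↥E θ) (hfaith : ∀ e : ↥E, θ e = θ 1 → e = 1) :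
    ∃ χ : G → ℂ, IsIrrCharacter G χ ∧ ∀ e : ↥E, χ e = θ e := by
  obtain ⟨z, e⟩ := exists_z E hE
  have hf : Fact (Nat.Prime 2) := ⟨Nat.prime_two⟩
  have hθz : θ ⟨z, e.zE⟩ ≠ θ 1 := by
    intro h
    exact e.z1 (congrArg Subtype.val (hfaith _ h))
  have hcen : ∀ b ∈ E, b ≠ 1 → b ≠ z → ∃ c ∈ E, b * c = z * (c * b) := by
    intro b hb hb1 hbz
    by_contra hcon
    push Not at hcon
    rcases e.cen b hb (fun c hc => (e.com b hb c hc).resolve_right (hcon c hc)) with h | h
    · exact hb1 h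
    · exact hbz h
  have hvan : ∀ n : ↥E, n ≠ 1 → n ≠ ⟨z, e.zE⟩ → θ n = 0 := by
    intro n hn1 hnz
    obtain ⟨c, hc, hbc⟩ := hcen n n.2 (fun h => hn1 (Subtype.ext h)) (fun h => hnz (Subtype.ext h))
    exact van hθ (z := ⟨z, e.zE⟩) (fun g => Subtype.ext (e.zc g)) (Subtype.ext e.z2) hθz (c := n)
      (x := ⟨c, hc⟩) (Subtype.ext hbc)
  have hinv : ∀ g : G, cj E g θ = θ := by
    intro g
    funext n
    rw [cj_apply]
    by_cases h1 : n = 1
    · subst h1
      congr 1
      apply Subtype.ext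
      change g * 1 * g⁻¹ = 1
      group
    · by_cases hz : n = ⟨z, e.zE⟩
      · subst hz
        congr 1
        apply Subtype.ext
        change g * z * g⁻¹ = z
        rw [← e.zc, mul_inv_cancel_right]
      · rw [hvan n h1 hz]
        apply hvan
        · intro h
          apply h1
          apply Subtype.ext
          have h2 : g * (n : G) * g⁻¹ = 1 := congrArg Subtype.val h
          have h3 : (n : G) = g⁻¹ * (g * (n : G) * g⁻¹) * g := by group
          rw [h3, h2]
          change g⁻¹ * 1 * g = 1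
          group
        · intro h
          apply hz
          apply Subtype.ext
          have h2 : g * (n : G) * g⁻¹ = z := congrArg Subtype.val h
          have h3 : (n : G) = g⁻¹ * (g * (n : G) * g⁻¹) * g := by group
          rw [h3, h2]
          change g⁻¹ * z * g = z
          rw [mul_assoc, e.zc, inv_mul_cancel_left]
  have hnE : ∀ X : Subgroup G, X ≤ normalizer (E : Set G) := by
    intro X; rw [normalizer_eq_top_iff.2 hEn]; exact le_top
  apply ScalarDeg.extends_of_sylow hθ hinv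
  intro p hp
  have hpf : Fact p.Prime := ⟨hp⟩
  obtain ⟨R⟩ : Nonempty (Sylow p ↥H) := inferInstance
  set R' := (R : Subgroup ↥H).map H.subtype with hR'
  have hR'H : R' ≤ H := map_subtype_le _
  have hER : E ⊓ R' = ⊥ := by
    rw [eq_bot_iff, ← hEH]
    exact inf_le_inf_left E hR'H
  have hR'p : IsPGroup p R' := R.isPGroup'.map _
  have hcop := index_cop hEH hEHtop R
  rw [← hR'] at hcop
  by_cases hp2 : p = 2
  · subst hp2
    have hR'K : R' ≤ normalizer (K : Set G) := by
      rw [le_normalizer_iff]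
      intro h hh k hk
      exact hKn h (hR'H hh) k hk
    have hgood := ExSpG.main hodd _ z E ⊥ K R' (act e hEK hKodd hR'p hR'K) rfl
    obtain ⟨χ, hχ, hres⟩ := extend_of_good (N := E) (S := R') hER e.zE e.z2 e.zc e.z1 hcen hgood hθ hθz hinv
    exact ⟨E ⊔ R', le_sup_left, χ, hcop, hχ, hres⟩
  · -- odd `p`
    set P := E ⊔ R' with hP
    have hEP : E ≤ P := le_sup_left
    let N' : Subgroup P := E.subgroupOf P
    have hN' : N'.Normal := normal_subgroupOf_of_le_normalizer (hnE P)
    let f : N' ≃* E := Subgroup.subgroupOfEquivOfLe hEP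
    have hθ' : IsIrrCharacter N' (fun n => θ (f n)) := by
      obtain ⟨d, ρ, hρ, rfl⟩ := hθ
      exact ⟨d, ρ.comp f.toMonoidHom, CharBasic.isIrreducible_comp_of_surjective ρ _ f.surjective hρ, rfl⟩
    have hcard : N'.index * Nat.card E = Nat.card E * Nat.card R' := by
      have h2 := SubgroupTools.card_sup_mul_card_inf (hnE R')
      rw [hER, card_bot, mul_one] at h2
      rw [← h2, ← Nat.card_congr f.toEquiv, mul_comm]
      exact Subgroup.card_mul_index N'
    have hidx : N'.index = Nat.card R' := by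
      rw [mul_comm] at hcard
      exact Nat.eq_of_mul_eq_mul_left Nat.card_pos hcard
    obtain ⟨χ, hχ, hres⟩ := H76Ext.exists_extension_of_coprime_card N' hθ' (by
      intro g
      funext n
      rw [cj_apply]
      exact congrFun (hinv (g : G)) (f n)) (by
      rw [hidx, Nat.card_congr f.toEquiv]
      obtain ⟨a, ha⟩ := IsPGroup.iff_card.mp hR'p
      obtain ⟨b, hb⟩ := IsPGroup.iff_card.mp hE.1.1
      rw [ha, hb]
      apply Nat.Coprime.pow
      exact (Nat.coprime_primes hp Nat.prime_two).2 hp2)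
    refine ⟨P, hEP, χ, hcop, hχ, fun n => ?_⟩
    exact hres ⟨⟨n, hEP n.2⟩, n.2⟩

end Cfsg.Agent.Lib.ExSpI
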