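import Mathlib
import Cfsg.Prelude.Def_GeometricClasses

/-!
Transvections in `GL ι F`, generation of the special linear group, stabilisers of subspaces.
-/

set_option autoImplicit false

namespace Cfsg.Agent.Lib.SLGeom

open Matrix

variable {ι : Type} [Fintype ι] [DecidableEq ι] {F : Type*} [Field F]

theorem vecMulVec_sq (v w : ι → F) (h : w ⬝ᵥ v = 0) : vecMulVec v w * vecMulVec v w = 0 := by
  rw [vecMulVec_mul_vecMulVec, h]
  ext i j
  simp [vecMulVec]

/-- the transvection `x ↦ x + (w ⬝ x) v` -/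
def tv (v w : ι → F) (h : w ⬝ᵥ v = 0) : GL ι F where
  val := 1 + vecMulVec v w
  inv := 1 - vecMulVec v w
  val_inv := by
    have := vecMulVec_sq v w h
    noncomm_ring
    simp [this]
  inv_val := by
    have := vecMulVec_sq v w h
    noncomm_ring
    simp [this]

theorem tv_val (v w : ι → F) (h : w ⬝ᵥ v = 0) : ((tv v w h : GL ι F) : Matrix ι ι F) = 1 + vecMulVec v w := rfl

theorem tv_mulVec (v w : ι → F) (h : w ⬝ᵥ v = 0) (x : ι → F) :
    ((tv v w h : GL ι F) : Matrix ι ι F) *ᵥ x = x + (w ⬝ᵥ x) • v := by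
  rw [tv_val, Matrix.add_mulVec, Matrix.one_mulVec, Matrix.vecMulVec_mulVec]
  congr 1
  ext i
  simp [mul_comm]

theorem tv_mem (v w : ι → F) (h : w ⬝ᵥ v = 0) : tv v w h ∈ Cfsg.Geo.specialLinear ι F := by
  change Matrix.GeneralLinearGroup.det (tv v w h) = 1
  apply Units.ext
  change (1 + vecMulVec v w).det = 1
  rw [Matrix.vecMulVec_eq Unit, Matrix.det_one_add_replicateCol_mul_replicateRow, h, add_zero]

theorem gl_ext {g h : GL ι F} (H : ∀ x, (g : Matrix ι ι F) *ᵥ x = (h : Matrix ι ι F) *ᵥ x) : g = h := by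
  apply Units.ext
  exact Matrix.ext_of_mulVec_single fun i => H _

/-- conjugating transvections -/
theorem tv_conj (g : GL ι F) (v w : ι → F) (h : w ⬝ᵥ v = 0) (w' : ι → F)
    (hw : ∀ x, w' ⬝ᵥ x = w ⬝ᵥ (((g⁻¹ : GL ι F) : Matrix ι ι F) *ᵥ x))
    (h' : w' ⬝ᵥ ((g : Matrix ι ι F) *ᵥ v) = 0) :
    g * tv v w h * g⁻¹ = tv ((g : Matrix ι ι F) *ᵥ v) w' h' := by
  apply gl_ext
  intro x
  rw [Units.val_mul, Units.val_mul, ← Matrix.mulVec_mulVec, ← Matrix.mulVec_mulVec, tv_mulVec, tv_mulVec,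
    Matrix.mulVec_add, Matrix.mulVec_smul, Matrix.mulVec_mulVec, ← Units.val_mul, mul_inv_cancel, Units.val_one,
    Matrix.one_mulVec, hw]

theorem mem_stab (W : Submodule F (ι → F)) (g : GL ι F) :
    g ∈ Cfsg.Geo.subspaceStabilizer W ↔ ∀ v, v ∈ W ↔ (g : Matrix ι ι F) *ᵥ v ∈ W := Iff.rfl

/-- in finite dimension, mapping `W` into itself suffices -/
theorem mem_stab_of_le (W : Submodule F (ι → F)) (g : GL ι F) (h : ∀ v ∈ W, (g : Matrix ι ι F) *ᵥ v ∈ W) :
    g ∈ Cfsg.Geo.subspaceStabilizer W := by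
  rw [mem_stab]
  intro v
  refine ⟨h v, fun hv => ?_⟩
  let φ : (ι → F) →ₗ[F] (ι → F) := Matrix.toLin' (g : Matrix ι ι F)
  have hφ : ∀ x, φ x = (g : Matrix ι ι F) *ᵥ x := fun x => Matrix.toLin'_apply _ _
  have hinj : Function.Injective φ := by
    intro x y hxy
    rw [hφ, hφ] at hxy
    have := congrArg (fun z => ((g⁻¹ : GL ι F) : Matrix ι ι F) *ᵥ z) hxy
    simp only [Matrix.mulVec_mulVec, ← Units.val_mul, inv_mul_cancel, Units.val_one, Matrix.one_mulVec] at this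
    exact this
  have hle : W.map φ ≤ W := by
    rintro _ ⟨x, hx, rfl⟩
    rw [hφ]; exact h x hx
  have heq : W.map φ = W := by
    apply Submodule.eq_of_le_of_finrank_eq hle
    exact (Submodule.equivMapOfInjective φ hinj W).finrank_eq.symm
  rw [← heq] at hv
  obtain ⟨x, hx, hxv⟩ := hv
  rw [← hφ] at hxv
  rw [← hinj hxv]; exact hx

theorem tv_mem_stab_of_ker (W : Submodule F (ι → F)) (v w : ι → F) (h : w ⬝ᵥ v = 0) (hw : ∀ x ∈ W, w ⬝ᵥ x = 0) :
    tv v w h ∈ Cfsg.Geo.subspaceStabilizer W := by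
  apply mem_stab_of_le
  intro x hx
  rw [tv_mulVec, hw x hx, zero_smul, add_zero]; exact hx

theorem tv_mem_stab_of_mem (W : Submodule F (ι → F)) (v w : ι → F) (h : w ⬝ᵥ v = 0) (hv : v ∈ W) :
    tv v w h ∈ Cfsg.Geo.subspaceStabilizer W := by
  apply mem_stab_of_le
  intro x hx
  rw [tv_mulVec]; exact W.add_mem hx (W.smul_mem _ hv)

/-- a functional vanishing on `W` with value one at `u` -/
theorem exists_dot {W : Submodule F (ι → F)} {u : ι → F} (hu : u ∉ W) :
    ∃ w : ι → F, (∀ x ∈ W, w ⬝ᵥ x = 0) ∧ w ⬝ᵥ u = 1 := by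
  obtain ⟨f, hfu, hf⟩ := Submodule.exists_le_ker_of_notMem hu
  refine ⟨fun i => (f u)⁻¹ * f (Pi.single i 1), ?_⟩
  have key : ∀ x, (fun i => (f u)⁻¹ * f (Pi.single i 1)) ⬝ᵥ x = (f u)⁻¹ * f x := by
    intro x
    conv_rhs => rw [← Finset.univ_sum_single x]
    rw [map_sum, Finset.mul_sum, dotProduct]
    apply Finset.sum_congr rfl
    intro i _
    have : (Pi.single i (x i) : ι → F) = x i • Pi.single i 1 := by
      rw [← Pi.single_smul, smul_eq_mul, mul_one]
    rw [this, map_smul, smul_eq_mul]; ring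
  constructor
  · intro x hx
    rw [key, show f x = 0 from hf hx, mul_zero]
  · rw [key, inv_mul_cancel₀ hfu]

/-- a transvection fixing `W'` pointwise, moving `u` by the vector `v` of `W'` -/
theorem exists_tv {W' : Submodule F (ι → F)} {u v : ι → F} (hu : u ∉ W') (hv : v ∈ W') :
    ∃ g ∈ Cfsg.Geo.specialLinear ι F, (∀ x ∈ W', (g : Matrix ι ι F) *ᵥ x = x) ∧ (g : Matrix ι ι F) *ᵥ u = u + v := by
  obtain ⟨w, hw, hwu⟩ := exists_dot hu
  refine ⟨tv v w (hw v hv), tv_mem _ _ _, fun x hx => ?_, ?_⟩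
  · rw [tv_mulVec, hw x hx, zero_smul, add_zero]
  · rw [tv_mulVec, hwu, one_smul]

theorem stab_lt_sl (W : Submodule F (ι → F)) (h0 : W ≠ ⊥) (h1 : W ≠ ⊤) :
    Cfsg.Geo.subspaceStabilizer W ⊓ Cfsg.Geo.specialLinear ι F < Cfsg.Geo.specialLinear ι F := by
  refine lt_of_le_of_ne inf_le_right ?_
  intro heq
  obtain ⟨u, huW, hu0⟩ := Submodule.exists_mem_ne_zero_of_ne_bot h0
  obtain ⟨v, hv⟩ : ∃ v, v ∉ W := by
    by_contra hcon
    push Not at hcon
    exact h1 (eq_top_iff.2 fun x _ => hcon x)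
  have hu' : u ∉ F ∙ v := by
    intro h
    obtain ⟨c, hc⟩ := Submodule.mem_span_singleton.1 h
    have hc0 : c ≠ 0 := by rintro rfl; rw [zero_smul] at hc; exact hu0 hc.symm
    apply hv
    rw [← inv_smul_smul₀ hc0 v, hc]
    exact W.smul_mem _ huW
  obtain ⟨g, hg, -, hgu⟩ := exists_tv hu' (Submodule.mem_span_singleton_self v)
  have : g ∈ Cfsg.Geo.subspaceStabilizer W ⊓ Cfsg.Geo.specialLinear ι F := by rw [heq]; exact hg
  have h2 := ((mem_stab W g).1 this.1 u).1 huW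
  rw [hgu] at h2
  apply hv
  have := W.sub_mem h2 huW
  rwa [add_sub_cancel_left] at this

/-- a determinant one element fixing `W` pointwise and not stabilising `U`, when some point of `U` lies outside `W` and
some vector `v` outside `U` satisfies `u ∉ W ⊔ ⟨v⟩` -/
theorem stab_inf_lt (W U : Submodule F (ι → F)) {u v : ι → F} (huU : u ∈ U) (hv : v ∉ U)
    (hu : u ∉ W ⊔ (F ∙ v)) :
    Cfsg.Geo.subspaceStabilizer W ⊓ Cfsg.Geo.subspaceStabilizer U ⊓ Cfsg.Geo.specialLinear ι F <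
      Cfsg.Geo.subspaceStabilizer W ⊓ Cfsg.Geo.specialLinear ι F := by
  refine lt_of_le_of_ne (le_inf (inf_le_left.trans inf_le_left) inf_le_right) ?_
  intro heq
  obtain ⟨g, hg, hgW, hgu⟩ := exists_tv hu (Submodule.mem_sup_right (Submodule.mem_span_singleton_self v))
  have h1 : g ∈ Cfsg.Geo.subspaceStabilizer W := by
    apply mem_stab_of_le
    intro x hx
    rw [hgW x (Submodule.mem_sup_left hx)]; exact hx
  have h2 : g ∈ Cfsg.Geo.subspaceStabilizer W ⊓ Cfsg.Geo.subspaceStabilizer U ⊓ Cfsg.Geo.specialLinear ι F := by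
    rw [heq]; exact ⟨h1, hg⟩
  have h3 := ((mem_stab U g).1 h2.1.2 u).1 huU
  rw [hgu] at h3
  apply hv
  have := U.sub_mem h3 huU
  rwa [add_sub_cancel_left] at this

/-- `S5632` -/
theorem flag_not_maximal (n : ℕ) (W U : Submodule F (Fin n → F)) (hW0 : W ≠ ⊥) (hWU : W < U)
    (hdim : Module.finrank F W + Module.finrank F U = n) :
    ∃ K : Subgroup (GL (Fin n) F), Cfsg.Geo.subspaceStabilizer W ⊓ Cfsg.Geo.subspaceStabilizer U ⊓
      Cfsg.Geo.specialLinear (Fin n) F < K ∧ K < Cfsg.Geo.specialLinear (Fin n) F := by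
  have hW1 : 0 < Module.finrank F W := by
    rw [Nat.pos_iff_ne_zero]
    intro h
    exact hW0 (Submodule.finrank_eq_zero.1 h)
  have hU : U ≠ ⊤ := by
    rintro rfl
    rw [finrank_top, Module.finrank_fin_fun] at hdim
    omega
  obtain ⟨u, huU, huW⟩ := SetLike.exists_of_lt hWU
  obtain ⟨v, hv⟩ : ∃ v, v ∉ U := by
    by_contra hcon
    push Not at hcon
    exact hU (eq_top_iff.2 fun x _ => hcon x)
  refine ⟨_, stab_inf_lt W U huU hv ?_, stab_lt_sl W hW0 ?_⟩
  · intro h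
    obtain ⟨w, hw, z, hz, hwz⟩ := Submodule.mem_sup.1 h
    obtain ⟨c, rfl⟩ := Submodule.mem_span_singleton.1 hz
    by_cases hc : c = 0
    · rw [hc, zero_smul, add_zero] at hwz
      exact huW (hwz ▸ hw)
    · apply hv
      have h1 : c • v ∈ U := by
        have : c • v = u - w := by rw [← hwz]; abel
        rw [this]; exact U.sub_mem huU (hWU.le hw)
      rw [← inv_smul_smul₀ hc v]
      exact U.smul_mem _ h1
  · rintro rfl
    exact hU (top_le_iff.1 hWU.le)

/-- `S5633` -/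
theorem complement_not_maximal (n : ℕ) (W U : Submodule F (Fin n → F)) (hW0 : W ≠ ⊥) (hWU : W ⊓ U = ⊥)
    (hdim : Module.finrank F W < Module.finrank F U) :
    ∃ K : Subgroup (GL (Fin n) F), Cfsg.Geo.subspaceStabilizer W ⊓ Cfsg.Geo.subspaceStabilizer U ⊓
      Cfsg.Geo.specialLinear (Fin n) F < K ∧ K < Cfsg.Geo.specialLinear (Fin n) F := by
  have hU0 : U ≠ ⊥ := by
    rintro rfl
    rw [finrank_bot] at hdim
    omega
  obtain ⟨u, huU, hu0⟩ := Submodule.exists_mem_ne_zero_of_ne_bot hU0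
  obtain ⟨v, hvW, hv0⟩ := Submodule.exists_mem_ne_zero_of_ne_bot hW0
  have disj : ∀ x, x ∈ W → x ∈ U → x = 0 := by
    intro x h1 h2
    have : x ∈ W ⊓ U := ⟨h1, h2⟩
    rw [hWU] at this
    exact (Submodule.mem_bot F).1 this
  have hvU : v ∉ U := fun h => hv0 (disj v hvW h)
  have huW : u ∉ W := fun h => hu0 (disj u h huU)
  refine ⟨_, stab_inf_lt W U huU hvU ?_, stab_lt_sl W hW0 ?_⟩
  · have : W ⊔ (F ∙ v) = W := by
      rw [sup_eq_left, Submodule.span_singleton_le_iff_mem]; exact hvW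
    rw [this]; exact huW
  · rintro rfl
    exact huW Submodule.mem_top

end Cfsg.Agent.Lib.SLGeom
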