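import Mathlib
import Cfsg.Prelude.Def_GeometricClasses
import Cfsg.Agent.Lib.SLGeom

/-!
The special linear group is generated by transvections; stabilisers of subspaces are maximal in it.
-/

set_option autoImplicit false

namespace Cfsg.Agent.Lib.SLGeom

open Matrix

variable {ι : Type} [Fintype ι] [DecidableEq ι] {F : Type*} [Field F]

/-- elementary matrices as transvections -/
def el (i j : ι) (hij : i ≠ j) (c : F) : GL ι F :=
  tv (Pi.single i c) (Pi.single j 1) (by rw [single_dotProduct, one_mul, Pi.single_eq_of_ne hij.symm])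

theorem el_mulVec (i j : ι) (hij : i ≠ j) (c : F) (x : ι → F) :
    ((el i j hij c : GL ι F) : Matrix ι ι F) *ᵥ x = Function.update x i (x i + c * x j) := by
  rw [el, tv_mulVec, single_dotProduct, one_mul]
  funext k
  by_cases hk : k = i
  · subst hk
    simp [mul_comm]
  · simp [hk]

theorem el_val (i j : ι) (hij : i ≠ j) (c : F) :
    ((el i j hij c : GL ι F) : Matrix ι ι F) = Matrix.transvection i j c := by
  rw [el, tv_val, Matrix.transvection]
  congr 1
  ext k l
  rw [vecMulVec_apply]
  by_cases hk : k = i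
  · by_cases hl : l = j
    · subst hk hl; simp
    · subst hk
      rw [Pi.single_eq_of_ne hl, mul_zero, Matrix.single_apply_of_ne]
      intro h; exact hl h.2.symm
  · rw [Pi.single_eq_of_ne hk, zero_mul, Matrix.single_apply_of_ne]
    intro h; exact hk h.1.symm

/-- the diagonal element `diag(c, c⁻¹)` at positions `i, j` as a product of six elementary matrices -/
theorem diag_mulVec (i j : ι) (hij : i ≠ j) (c : F) (hc : c ≠ 0) (x : ι → F) :
    (((el i j hij c * el j i hij.symm (-c⁻¹) * el i j hij c * (el i j hij (-1) * el j i hij.symm 1 *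
      el i j hij (-1)) : GL ι F)) : Matrix ι ι F) *ᵥ x =
      (diagonal (fun k ↦ if k = i then c else if k = j then c⁻¹ else 1)) *ᵥ x := by
  simp only [Units.val_mul, ← Matrix.mulVec_mulVec, el_mulVec]
  funext k
  rw [mulVec_diagonal]
  have hji : j ≠ i := hij.symm
  by_cases hk : k = i
  · subst hk
    simp [Function.update_self, Function.update_of_ne, hij, hji]
    field_simp
    ring
  · by_cases hl : k = j
    · subst hl
      simp [Function.update_self, Function.update_of_ne, hij, hji, hk]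
      field_simp
      ring
    · simp [Function.update_of_ne, hk, hl]

/-- a subgroup containing the elementary matrices contains the special linear group -/
theorem sl_le_of_el [Nontrivial ι] (H : Subgroup (GL ι F)) (h : ∀ i j (hij : i ≠ j) (c : F), el i j hij c ∈ H) :
    Cfsg.Geo.specialLinear ι F ≤ H := by
  have key : ∀ M : Matrix.SpecialLinearGroup ι F, (M : GL ι F) ∈ H := by
    intro M
    apply Matrix.SpecialLinearGroup.diagonal_transvection_induction' (fun M => (M : GL ι F) ∈ H) M
    · intro i j hij c hc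
      have h1 : ((Matrix.SpecialLinearGroup.diag2n hij c hc : Matrix.SpecialLinearGroup ι F) : GL ι F) =
          el i j hij c * el j i hij.symm (-c⁻¹) * el i j hij c * (el i j hij (-1) * el j i hij.symm 1 *
            el i j hij (-1)) := by
        apply gl_ext
        intro x
        rw [diag_mulVec i j hij c hc]
        rfl
      rw [h1]
      exact H.mul_mem (H.mul_mem (H.mul_mem (h _ _ _ _) (h _ _ _ _)) (h _ _ _ _))
        (H.mul_mem (H.mul_mem (h _ _ _ _) (h _ _ _ _)) (h _ _ _ _))
    · intro i j hij a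
      have h1 : ((Matrix.SpecialLinearGroup.transvection hij a : Matrix.SpecialLinearGroup ι F) : GL ι F) =
          el i j hij a := by
        apply Units.ext
        rw [el_val]
        rfl
      rw [h1]; exact h _ _ _ _
    · intro A B hA hB
      rw [map_mul]
      exact H.mul_mem hA hB
  intro g hg
  have hdet : (g : Matrix ι ι F).det = 1 := by
    have h1 : Matrix.GeneralLinearGroup.det g = 1 := hg
    exact congrArg Units.val h1
  let g' : Matrix.SpecialLinearGroup ι F := ⟨(g : Matrix ι ι F), hdet⟩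
  have h3 := key g'
  have h2 : (g' : GL ι F) = g := by
    apply Units.ext
    rfl
  rwa [h2] at h3

/-- a subgroup containing all transvections contains the special linear group -/
theorem sl_le_of_tv (H : Subgroup (GL ι F)) (h : ∀ (v w : ι → F) (h : w ⬝ᵥ v = 0), tv v w h ∈ H) :
    Cfsg.Geo.specialLinear ι F ≤ H := by
  rcases subsingleton_or_nontrivial ι with hs | hn
  · intro g hg
    have hdet : (g : Matrix ι ι F).det = 1 := by
      have h1 : Matrix.GeneralLinearGroup.det g = 1 := hg
      exact congrArg Units.val h1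
    have : g = 1 := by
      apply Units.ext
      rcases isEmpty_or_nonempty ι with he | ⟨⟨i⟩⟩
      · ext i; exact he.elim i
      · have hu : ∀ k, k = i := fun k => Subsingleton.elim _ _
        have : Unique ι := ⟨⟨i⟩, hu⟩
        rw [Matrix.det_unique] at hdet
        ext a b
        rw [hu a, hu b]
        have : (default : ι) = i := Subsingleton.elim _ _
        rw [this] at hdet
        rw [hdet]; simp
    rw [this]; exact H.one_mem
  · exact sl_le_of_el H (fun i j hij c => h _ _ _)

/-- a vector form of the dual action -/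
theorem exists_dual (g : GL ι F) (w : ι → F) :
    ∃ w' : ι → F, ∀ x, w' ⬝ᵥ x = w ⬝ᵥ ((g : Matrix ι ι F) *ᵥ x) := by
  refine ⟨w ᵥ* (g : Matrix ι ι F), fun x => ?_⟩
  rw [Matrix.dotProduct_mulVec]

theorem inv_mulVec_mulVec (g : GL ι F) (x : ι → F) :
    ((g⁻¹ : GL ι F) : Matrix ι ι F) *ᵥ ((g : Matrix ι ι F) *ᵥ x) = x := by
  rw [Matrix.mulVec_mulVec, ← Units.val_mul, inv_mul_cancel, Units.val_one, Matrix.one_mulVec]

theorem mulVec_inv_mulVec (g : GL ι F) (x : ι → F) :
    (g : Matrix ι ι F) *ᵥ (((g⁻¹ : GL ι F) : Matrix ι ι F) *ᵥ x) = x := by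
  rw [Matrix.mulVec_mulVec, ← Units.val_mul, mul_inv_cancel, Units.val_one, Matrix.one_mulVec]

/-- if `H` contains all transvections with centre `v`, and `g ∈ H`, then `H` contains all transvections with centre
`g v` -/
theorem tv_transport (H : Subgroup (GL ι F)) (v : ι → F) (hv : ∀ (w : ι → F) (h : w ⬝ᵥ v = 0), tv v w h ∈ H)
    (g : GL ι F) (hg : g ∈ H) (w : ι → F) (h : w ⬝ᵥ ((g : Matrix ι ι F) *ᵥ v) = 0) :
    tv ((g : Matrix ι ι F) *ᵥ v) w h ∈ H := by
  obtain ⟨w', hw'⟩ := exists_dual g w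
  have h0 : w' ⬝ᵥ v = 0 := by rw [hw', h]
  have h1 := tv_conj g v w' h0 w (by
    intro x
    rw [hw', mulVec_inv_mulVec]) h
  rw [← h1]
  exact H.mul_mem (H.mul_mem hg (hv w' h0)) (H.inv_mem hg)

theorem tv_smul (H : Subgroup (GL ι F)) (v : ι → F) (hv : ∀ (w : ι → F) (h : w ⬝ᵥ v = 0), tv v w h ∈ H)
    (c : F) (w : ι → F) (h : w ⬝ᵥ (c • v) = 0) : tv (c • v) w h ∈ H := by
  have h0 : (c • w) ⬝ᵥ v = 0 := by
    rw [smul_dotProduct, ← dotProduct_smul]; exact h
  have : tv (c • v) w h = tv v (c • w) h0 := by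
    apply gl_ext
    intro x
    rw [tv_mulVec, tv_mulVec, smul_dotProduct, smul_smul, smul_eq_mul, mul_comm]
  rw [this]; exact hv _ _

/-- `S5631`: maximality of subspace stabilisers (any dimension) -/
theorem subspace_maximal (W : Submodule F (ι → F)) (hW0 : W ≠ ⊥) (hW1 : W ≠ ⊤) :
    Cfsg.Geo.IsMaximalIn (Cfsg.Geo.specialLinear ι F) (Cfsg.Geo.subspaceStabilizer W ⊓ Cfsg.Geo.specialLinear ι F) := by
  refine ⟨stab_lt_sl W hW0 hW1, fun M hPM hMS => ?_⟩
  by_cases hM : M ≤ Cfsg.Geo.subspaceStabilizer W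
  · left
    exact le_antisymm (le_inf hM hMS) hPM
  right
  apply le_antisymm hMS
  -- an element moving `W`
  obtain ⟨g, hgM, hgW⟩ := SetLike.not_le_iff_exists.1 hM
  obtain ⟨w0, hw0W, hw0g⟩ : ∃ w0 ∈ W, (g : Matrix ι ι F) *ᵥ w0 ∉ W := by
    by_contra hcon
    push Not at hcon
    exact hgW (mem_stab_of_le W g hcon)
  set u0 : ι → F := (g : Matrix ι ι F) *ᵥ w0 with hu0
  -- transvections with centre in `W`
  have hWt : ∀ v ∈ W, ∀ (w : ι → F) (h : w ⬝ᵥ v = 0), tv v w h ∈ M := fun v hv w h =>
    hPM ⟨tv_mem_stab_of_mem W v w h hv, tv_mem v w h⟩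
  have hu0t : ∀ (w : ι → F) (h : w ⬝ᵥ u0 = 0), tv u0 w h ∈ M := fun w h =>
    tv_transport M w0 (hWt w0 hw0W) g hgM w h
  -- vectors of the form `v` with `u0 ∉ W ⊔ ⟨v - u0⟩`
  have step : ∀ v : ι → F, u0 ∉ W ⊔ (F ∙ (v - u0)) → ∀ (w : ι → F) (h : w ⬝ᵥ v = 0), tv v w h ∈ M := by
    intro v hv
    obtain ⟨w, hw, hwu⟩ := exists_dot hv
    have hd : w ⬝ᵥ (v - u0) = 0 := hw _ (Submodule.mem_sup_right (Submodule.mem_span_singleton_self _))
    have hp : tv (v - u0) w hd ∈ M := hPM ⟨tv_mem_stab_of_ker W _ _ _ (fun x hx => hw x (Submodule.mem_sup_left hx)),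
      tv_mem _ _ _⟩
    have hpu : ((tv (v - u0) w hd : GL ι F) : Matrix ι ι F) *ᵥ u0 = v := by
      rw [tv_mulVec, hwu, one_smul]; abel
    intro w' h'
    have := tv_transport M u0 hu0t _ hp w' (by rw [hpu]; exact h')
    simp only [hpu] at this
    exact this
  apply sl_le_of_tv
  intro v w h
  by_cases hvW : v ∈ W
  · exact hWt v hvW w h
  by_cases h1 : u0 ∈ W ⊔ (F ∙ (v - u0))
  · -- then `v` is congruent to a multiple of `u0` modulo `W`
    obtain ⟨a, ha, z, hz, haz⟩ := Submodule.mem_sup.1 h1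
    obtain ⟨c, rfl⟩ := Submodule.mem_span_singleton.1 hz
    -- (1 + c) u0 = a + c v
    have h2 : (1 + c) • u0 - c • v = a := by
      rw [add_smul, one_smul]
      nth_rewrite 1 [← haz]
      rw [smul_sub]; abel
    have hc0 : c ≠ 0 := by
      rintro rfl
      rw [zero_smul, sub_zero, add_zero, one_smul] at h2
      exact hw0g (h2 ▸ ha)
    have hc1 : 1 + c ≠ 0 := by
      intro hc
      rw [hc, zero_smul, zero_sub] at h2
      apply hvW
      have : v = (-c)⁻¹ • a := by
        rw [← h2, ← neg_smul, smul_smul, inv_mul_cancel₀ (neg_ne_zero.2 hc0), one_smul]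
      rw [this]; exact W.smul_mem _ ha
    -- v' = (c / (1 + c)) v is congruent to u0
    have h3 : u0 ∉ W ⊔ (F ∙ ((((1 + c)⁻¹ * c) • v) - u0)) := by
      have h4 : (((1 + c)⁻¹ * c) • v) - u0 ∈ W := by
        have : (((1 + c)⁻¹ * c) • v) - u0 = (-(1 + c)⁻¹) • a := by
          rw [← h2, smul_sub, smul_smul, smul_smul, neg_mul, inv_mul_cancel₀ hc1, neg_smul, one_smul, neg_mul,
            neg_smul]
          abel
        rw [this]; exact W.smul_mem _ ha
      have h5 : W ⊔ (F ∙ ((((1 + c)⁻¹ * c) • v) - u0)) = W := by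
        rw [sup_eq_left, Submodule.span_singleton_le_iff_mem]; exact h4
      rw [h5]; exact hw0g
    have h6 := step _ h3
    have hne : (1 + c)⁻¹ * c ≠ 0 := mul_ne_zero (inv_ne_zero hc1) hc0
    have h7 := tv_smul M _ h6 ((1 + c)⁻¹ * c)⁻¹ w
    rw [smul_smul, inv_mul_cancel₀ hne, one_smul] at h7
    exact h7 h
  · exact step v h1 w h

end Cfsg.Agent.Lib.SLGeom
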