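import Mathlib
import Cfsg.Agent.Lib.SpMax
import Cfsg.Agent.Lib.GeoBridge
import Cfsg.Agent.Lib.SLGen

set_option autoImplicit false

/-!
Overgroups of the symplectic group in the special linear group.
-/

namespace Cfsg.Agent.Lib.SLMax

open Cfsg.Agent.Lib.SpTrans Cfsg.Agent.Lib.SpMax Cfsg.Agent.Lib.GeoBridge

section abstract
variable {F V : Type*} [Field F] [AddCommGroup V] [Module F V]

/-- the transvection `x ↦ x + φ(x) v` -/
def tr (v : V) (φ : Module.Dual F V) (h : φ v = 0) : V ≃ₗ[F] V := LinearEquiv.transvection h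

theorem tr_apply (v : V) (φ : Module.Dual F V) (h : φ v = 0) (x : V) : tr v φ h x = x + φ x • v := by
  rw [tr, LinearEquiv.transvection.apply]

theorem tr_det (v : V) (φ : Module.Dual F V) (h : φ v = 0) :
    LinearMap.det ((tr v φ h : V ≃ₗ[F] V) : V →ₗ[F] V) = 1 := by
  rw [← LinearEquiv.coe_det, tr, LinearEquiv.transvection.det_eq_one, Units.val_one]

theorem conj_tr (g : V ≃ₗ[F] V) (v : V) (φ : Module.Dual F V) (h : φ v = 0)
    (h' : (φ ∘ₗ (g⁻¹ : V ≃ₗ[F] V).toLinearMap) (g v) = 0) :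
    g * tr v φ h * g⁻¹ = tr (g v) (φ ∘ₗ (g⁻¹ : V ≃ₗ[F] V).toLinearMap) h' := by
  ext x
  rw [LinearEquiv.mul_apply, LinearEquiv.mul_apply, tr_apply, tr_apply, map_add, map_smul,
    ← LinearEquiv.mul_apply, mul_inv_cancel]
  rfl

theorem tr_mul (v : V) (φ ψ : Module.Dual F V) (h : φ v = 0) (h' : ψ v = 0) (h'' : (φ + ψ) v = 0) :
    tr v φ h * tr v ψ h' = tr v (φ + ψ) h'' := by
  ext x
  rw [LinearEquiv.mul_apply, tr_apply, tr_apply, tr_apply, map_add, map_smul, h]
  simp only [smul_zero, add_zero, LinearMap.add_apply, add_smul]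
  abel

variable {B : V →ₗ[F] V →ₗ[F] F} (hB : B.IsAlt) [FiniteDimensional F V]

include hB in
/-- overgroups of the symplectic group: with one non-symplectic transvection we get all transvections -/
theorem all_tr_mem (hnd : NdOn B ⊤) {M : Subgroup (V ≃ₗ[F] V)} (hH : tgrp hB ⊤ ≤ M)
    {v w : V} (hvw : B v w = 0) (hv0 : v ≠ 0) (hwv : ∀ c : F, w ≠ c • v)
    (hM : ∀ (a : F) (h : (B.flip (a • w)) v = 0), tr v (B.flip (a • w)) h ∈ M) :
    ∀ (u : V) (φ : Module.Dual F V) (h : φ u = 0), tr u φ h ∈ M := by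
  -- every functional is B.flip w
  have hsurj : ∀ φ : Module.Dual F V, ∃ w, φ = B.flip w := by
    have hinj : Function.Injective B.flip := by
      rw [injective_iff_map_eq_zero]
      intro y hy
      by_contra hne
      obtain ⟨z, -, hz⟩ := hnd y trivial hne
      apply hz
      have : B.flip y z = 0 := by rw [hy]; rfl
      rw [alt_neg hB]
      simpa using this
    have := (LinearMap.injective_iff_surjective_of_finrank_eq_finrank
      (Subspace.dual_finrank_eq (K := F) (V := V)).symm).1 hinj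
    intro φ
    obtain ⟨w, hw⟩ := this φ
    exact ⟨w, hw.symm⟩
  -- B x v multiples
  have hvv : ∀ (a : F) (h : (B.flip (a • v)) v = 0), tr v (B.flip (a • v)) h ∈ M := by
    intro a h
    have : tr v (B.flip (a • v)) h = tv B hB v a := by
      ext x
      rw [tr_apply, tv_apply]
      simp
    rw [this]
    exact hH (tv_mem_tgrp hB Submodule.mem_top a)
  -- moving by stabiliser of v
  have hconj : ∀ (t : V ≃ₗ[F] V), t ∈ tgrp hB ⊤ → t v = v → ∀ (y : V) (h : (B.flip y) v = 0)
      (h' : (B.flip (t y)) v = 0), tr v (B.flip y) h ∈ M → tr v (B.flip (t y)) h' ∈ M := by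
    intro t ht htv y h h' hm
    have hti := tgrp_le_isom hB _ ht
    have e : B.flip y ∘ₗ (t⁻¹ : V ≃ₗ[F] V).toLinearMap = B.flip (t y) := by
      ext x
      have := hti (t⁻¹ x) y
      simp only at this
      rw [← LinearEquiv.mul_apply, mul_inv_cancel] at this
      simpa using this.symm
    have e2 : (B.flip y ∘ₗ (t⁻¹ : V ≃ₗ[F] V).toLinearMap) (t v) = 0 := by rw [e, htv]; exact h'
    have := conj_tr t v (B.flip y) h e2
    have h3 : tr v (B.flip (t y)) h' = tr (t v) (B.flip y ∘ₗ (t⁻¹ : V ≃ₗ[F] V).toLinearMap) e2 := by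
      ext x; rw [tr_apply, tr_apply, e, htv]
    rw [h3, ← this]
    exact mul_mem (mul_mem (hH ht) hm) (inv_mem (hH ht))
  -- nonorthogonal move
  have hmove1 : ∀ y z : V, B v y = 0 → B v z = 0 → B y z ≠ 0 →
      ∃ t ∈ tgrp hB ⊤, t v = v ∧ t y = z := by
    intro y z hy hz hyz
    refine ⟨tv B hB (z - y) (B y z)⁻¹, tv_mem_tgrp hB Submodule.mem_top _, ?_, ?_⟩
    · rw [tv_apply, map_sub, hy, hz]; simp
    · rw [tv_apply, map_sub, hB y, sub_zero, inv_mul_cancel₀ hyz]; simp
  have hnon : ∀ y, B v y = 0 → (∀ c : F, y ≠ c • v) → ∃ z, B v z = 0 ∧ B y z ≠ 0 := by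
    intro y hy hyv
    by_contra hcon
    push Not at hcon
    have h1 : y ∈ Submodule.span F {v} := by
      refine mem_of_perp_perp hnd fun z hz => ?_
      have h2 : B z v = 0 := hz v (Submodule.mem_span_singleton_self v)
      have h3 := hcon z (by rw [alt_neg hB, h2, neg_zero])
      rw [alt_neg hB, h3, neg_zero]
    obtain ⟨c, hc⟩ := Submodule.mem_span_singleton.1 h1
    exact hyv c hc.symm
  have hall : ∀ (y : V) (h : (B.flip y) v = 0), tr v (B.flip y) h ∈ M := by
    intro y hy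
    by_cases hyv : ∃ c : F, y = c • v
    · obtain ⟨c, rfl⟩ := hyv
      exact hvv c hy
    · push Not at hyv
      have hy' : B v y = 0 := by simpa using hy
      obtain ⟨t, ht, htv, htw⟩ : ∃ t ∈ tgrp hB ⊤, t v = v ∧ t w = y := by
        by_cases h : B w y = 0
        · obtain ⟨z1, hz1, hz1'⟩ := hnon w hvw hwv
          obtain ⟨z2, hz2, hz2'⟩ := hnon y hy' hyv
          obtain ⟨z, hz, h1, h2⟩ : ∃ z, B v z = 0 ∧ B w z ≠ 0 ∧ B y z ≠ 0 := by
            by_cases h3 : B y z1 = 0
            · by_cases h4 : B w z2 = 0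
              · refine ⟨z1 + z2, by rw [map_add, hz1, hz2, add_zero], ?_, ?_⟩
                · rw [map_add, h4, add_zero]; exact hz1'
                · rw [map_add, h3, zero_add]; exact hz2'
              · exact ⟨z2, hz2, h4, hz2'⟩
            · exact ⟨z1, hz1, hz1', h3⟩
          obtain ⟨t1, ht1, h5, h6⟩ := hmove1 w z hvw hz h1
          obtain ⟨t2, ht2, h7, h8⟩ := hmove1 z y hz hy' (by rw [alt_neg hB]; simpa using h2)
          exact ⟨t2 * t1, mul_mem ht2 ht1, by rw [LinearEquiv.mul_apply, h5, h7],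
            by rw [LinearEquiv.mul_apply, h6, h8]⟩
        · exact hmove1 w y hvw hy' h
      have h1 : (B.flip w) v = 0 := by simpa using hvw
      have h2 := hM 1 (by simpa using hvw)
      simp only [one_smul] at h2
      have := hconj t ht htv w h1 (by rw [htw]; exact hy) h2
      simp only [htw] at this
      exact this
  intro u φ hφ
  by_cases hu0 : u = 0
  · have : tr u φ hφ = 1 := by
      ext x; rw [tr_apply, hu0]; simp
    rw [this]; exact one_mem _
  obtain ⟨t, ht, htu⟩ := exists_move hB hnd (trivial : v ∈ (⊤ : Submodule F V)) (trivial : u ∈ (⊤ : Submodule F V)) hv0 hu0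
  obtain ⟨y, hy⟩ := hsurj (φ ∘ₗ (t : V →ₗ[F] V))
  have h1 : (φ ∘ₗ (t : V →ₗ[F] V)) v = 0 := by simpa [htu] using hφ
  have h2 : tr v (φ ∘ₗ (t : V →ₗ[F] V)) h1 ∈ M := by
    have h3 : (B.flip y) v = 0 := by rw [← hy]; exact h1
    have := hall y h3
    simp only [← hy] at this
    exact this
  have e1 : φ ∘ₗ (t : V →ₗ[F] V) ∘ₗ (t⁻¹ : V ≃ₗ[F] V).toLinearMap = φ := by
    ext x
    simp only [LinearMap.comp_apply, LinearEquiv.coe_coe]
    rw [← LinearEquiv.mul_apply, mul_inv_cancel]; rfl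
  have e2 : ((φ ∘ₗ (t : V →ₗ[F] V)) ∘ₗ (t⁻¹ : V ≃ₗ[F] V).toLinearMap) (t v) = 0 := by
    rw [LinearMap.comp_assoc, e1, htu]; exact hφ
  have h4 := conj_tr t v (φ ∘ₗ (t : V →ₗ[F] V)) h1 e2
  have h5 : tr u φ hφ = tr (t v) ((φ ∘ₗ (t : V →ₗ[F] V)) ∘ₗ (t⁻¹ : V ≃ₗ[F] V).toLinearMap) e2 := by
    ext x; rw [tr_apply, tr_apply, LinearMap.comp_assoc, e1, htu]
  rw [h5, ← h4]
  exact mul_mem (mul_mem (hH ht) h2) (inv_mem (hH ht))

include hB in
/-- an overgroup of `Sp(B)` with an element that is not a similarity contains all transvections -/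
theorem all_tr_mem_of_not_similarity (hnd : NdOn B ⊤) {M : Subgroup (V ≃ₗ[F] V)} (hH : tgrp hB ⊤ ≤ M)
    {g : V ≃ₗ[F] V} (hg : g ∈ M) (hns : ¬ ∃ c : F, ∀ x y, B (g x) (g y) = c * B x y) :
    ∀ (u : V) (φ : Module.Dual F V) (h : φ u = 0), tr u φ h ∈ M := by
  -- B'(x,y) = B (g⁻¹ x) (g⁻¹ y)
  let B' : V →ₗ[F] V →ₗ[F] F := B.compl₁₂ (g⁻¹ : V ≃ₗ[F] V).toLinearMap (g⁻¹ : V ≃ₗ[F] V).toLinearMap
  have hB' : ∀ x y, B' x y = B (g⁻¹ x) (g⁻¹ y) := fun x y => by simp [B']
  have hinj : Function.Injective B.flip := by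
    rw [injective_iff_map_eq_zero]
    intro y hy
    by_contra hne
    obtain ⟨z, -, hz⟩ := hnd y trivial hne
    apply hz
    have : B.flip y z = 0 := by rw [hy]; rfl
    rw [alt_neg hB]
    simpa using this
  let e : V ≃ₗ[F] Module.Dual F V := LinearEquiv.ofInjectiveOfFinrankEq B.flip hinj
    (Subspace.dual_finrank_eq (K := F) (V := V)).symm
  have he : ∀ w x, e w x = B x w := fun w x => by
    have : e w = B.flip w := rfl
    rw [this]; rfl
  -- A y with B x (A y) = B' x y
  let A : V →ₗ[F] V := e.symm.toLinearMap ∘ₗ B'.flip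
  have hA : ∀ x y, B x (A y) = B' x y := by
    intro x y
    rw [← he]
    show e (e.symm (B'.flip y)) x = _
    rw [LinearEquiv.apply_symm_apply]; rfl
  by_cases hAv : ∀ v, ∃ c : F, A v = c • v
  · -- A is a scalar
    exfalso
    apply hns
    have hs : ∃ c : F, ∀ v, A v = c • v := by
      by_cases hV : ∀ v : V, v = 0
      · exact ⟨0, fun v => by rw [hV v]; simp⟩
      push Not at hV
      obtain ⟨v0, hv0⟩ := hV
      obtain ⟨c, hc⟩ := hAv v0
      refine ⟨c, fun v => ?_⟩
      obtain ⟨d, hd⟩ := hAv v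
      by_cases hdep : ∃ a : F, v = a • v0
      · obtain ⟨a, rfl⟩ := hdep
        rw [map_smul, hc, smul_comm]
      · obtain ⟨b, hb⟩ := hAv (v0 + v)
        rw [map_add, hc, hd, smul_add] at hb
        have h1 : (c - b) • v0 = (b - d) • v := by
          rw [sub_smul, sub_smul, sub_eq_sub_iff_add_eq_add, hb, add_comm]
        by_cases hbd : b = d
        · rw [hbd, sub_self, zero_smul] at h1
          rcases smul_eq_zero.1 h1 with h | h
          · rw [sub_eq_zero] at h
            rw [hd, h]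
          · exact absurd h hv0
        · exfalso
          apply hdep
          refine ⟨(b - d)⁻¹ * (c - b), ?_⟩
          rw [mul_smul, h1, smul_smul, inv_mul_cancel₀ (sub_ne_zero.2 hbd), one_smul]
    obtain ⟨c, hc⟩ := hs
    -- B (g⁻¹ x)(g⁻¹ y) = c B x y
    have h1 : ∀ x y, B (g⁻¹ x) (g⁻¹ y) = c * B x y := by
      intro x y
      rw [← hB', ← hA, hc, map_smul, smul_eq_mul]
    by_cases hc0 : c = 0
    · -- then B = 0
      refine ⟨1, fun x y => ?_⟩
      have h2 : ∀ x y, B x y = 0 := by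
        intro x y
        have := h1 (g x) (g y)
        rw [← LinearEquiv.mul_apply, ← LinearEquiv.mul_apply, inv_mul_cancel, hc0, zero_mul] at this
        exact this
      rw [h2, h2]; ring
    · refine ⟨c⁻¹, fun x y => ?_⟩
      have := h1 (g x) (g y)
      rw [← LinearEquiv.mul_apply, ← LinearEquiv.mul_apply, inv_mul_cancel] at this
      have h3 : B x y = c * B (g x) (g y) := this
      rw [h3, ← mul_assoc, inv_mul_cancel₀ hc0, one_mul]
  · push Not at hAv
    obtain ⟨v, hv⟩ := hAv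
    have hv0 : v ≠ 0 := by
      rintro rfl; exact hv 0 (by simp)
    have hvw : B v (A v) = 0 := by rw [hA, hB', hB]
    refine all_tr_mem hB hnd hH hvw hv0 hv ?_
    intro a h
    -- conj of tv (g⁻¹ v) a
    have h1 : tv B hB (g⁻¹ v) a ∈ M := hH (tv_mem_tgrp hB Submodule.mem_top a)
    have h2 : tr v (B.flip (a • A v)) h = g * tv B hB (g⁻¹ v) a * g⁻¹ := by
      ext x
      have hgx : ∀ x, g (g⁻¹ x) = x := fun x => by
        rw [← LinearEquiv.mul_apply, mul_inv_cancel]; rfl
      rw [tr_apply, LinearEquiv.mul_apply, LinearEquiv.mul_apply, tv_apply, map_add,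
        LinearEquiv.map_smul g _ (g⁻¹ v), hgx, hgx]
      have h3 : (B.flip (a • A v)) x = a * B (g⁻¹ x) (g⁻¹ v) := by
        show B x (a • A v) = _
        rw [map_smul, smul_eq_mul, hA, hB']
      rw [h3]
    rw [h2]
    exact mul_mem (mul_mem hg h1) (inv_mem hg)

end abstract

section bridge
open Matrix
variable {ι : Type} [Fintype ι] [DecidableEq ι] {F : Type*} [Field F]

/-- a group of linear automorphisms containing all transvections contains (the image of) the special linear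
group -/
theorem sl_le (M : Subgroup ((ι → F) ≃ₗ[F] (ι → F)))
    (h : ∀ (u : ι → F) (φ : Module.Dual F (ι → F)) (h : φ u = 0), tr u φ h ∈ M) :
    ∀ g ∈ Cfsg.Geo.specialLinear ι F, le g ∈ M := by
  have := Cfsg.Agent.Lib.SLGeom.sl_le_of_tv (M.comap (le : GL ι F ≃* _).toMonoidHom) ?_
  · intro g hg; exact this hg
  · intro v w hvw
    show le _ ∈ M
    have h1 : (dotProductBilin F F w : Module.Dual F (ι → F)) v = 0 := hvw
    have h2 : le (Cfsg.Agent.Lib.SLGeom.tv v w hvw) = tr v (dotProductBilin F F w) h1 := by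
      apply LinearEquiv.ext
      intro x
      rw [tr_apply, le_apply, Cfsg.Agent.Lib.SLGeom.tv_mulVec]
      rfl
    rw [h2]
    exact h _ _ _

theorem tr_mem_sl (u : ι → F) (φ : Module.Dual F (ι → F)) (h : φ u = 0) :
    le.symm (tr u φ h) ∈ Cfsg.Geo.specialLinear ι F := by
  rw [mem_specialLinear_iff, MulEquiv.apply_symm_apply]
  exact tr_det u φ h

end bridge

end Cfsg.Agent.Lib.SLMax
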