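import Mathlib
import Cfsg.Agent.Lib.UnMax
import Cfsg.Agent.Lib.SLMax

set_option autoImplicit false
set_option linter.unusedSectionVars false

/-!
Overgroups of the special unitary group in the special linear group.
-/

namespace Cfsg.Agent.Lib.SLUn

open Cfsg.Agent.Lib.SpTrans (isom mem_isom)
open Cfsg.Agent.Lib.UnTrans Cfsg.Agent.Lib.UnMax
open Cfsg.Agent.Lib.SLMax (tr tr_apply tr_det conj_tr tr_mul)

variable {F V : Type*} [Field F] [AddCommGroup V] [Module F V] [FiniteDimensional F V]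
variable {σ : F →+* F} {f : V → V → F} (H : HS σ f)

include H in
theorem exists_aniso' {U R : Submodule F V} (hU : Module.finrank F R + 1 ≤ Module.finrank F U)
    (hrad : ∀ u ∈ U, (∀ x ∈ U, f x u = 0) → u ∈ R) : ∃ a ∈ U, f a a ≠ 0 := by
  by_contra hcon
  push Not at hcon
  have hle : U ≤ R := fun u hu => hrad u hu fun x hx => H.eq_zero_of_iso hcon hx hu
  have h1 := Submodule.finrank_mono hle
  omega

include H in
theorem exists_hyp' {U R : Submodule F V} (hU : Module.finrank F R + 2 ≤ Module.finrank F U)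
    (hrad : ∀ u ∈ U, (∀ x ∈ U, f x u = 0) → u ∈ R) :
    ∃ z ∈ U, f z z = 0 ∧ ∃ y ∈ U, f z y ≠ 0 := by
  obtain ⟨a, haU, ha⟩ := exists_aniso' H (U := U) (by omega) hrad
  have h2 := HS.finrank_inf_ker U (H.fl a)
  set U' := U ⊓ LinearMap.ker (H.fl a) with hU'
  have memU' : ∀ x, x ∈ U' ↔ x ∈ U ∧ f x a = 0 := by intro x; simp [hU']
  obtain ⟨b, hbU', hb⟩ := exists_aniso' H (U := U') (R := R) (by omega) (by
    intro u hu h
    apply hrad u ((memU' u).1 hu).1
    intro x hx
    have hua : f a u = 0 := H.symm_zero ((memU' u).1 hu).2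
    have h3 := h (x - (f x a / f a a) • a) ((memU' _).2 ⟨U.sub_mem hx (U.smul_mem _ haU), by
      rw [H.sub_left, H.smul_left, div_mul_cancel₀ _ ha, sub_self]⟩)
    rwa [H.sub_left, H.smul_left, hua, mul_zero, sub_zero] at h3)
  obtain ⟨hbU, hba⟩ := (memU' b).1 hbU'
  obtain ⟨l, hl⟩ := H.norm (-(f a a) / f b b) (by
    rw [map_div₀, map_neg, H.self_fixed, H.self_fixed])
  refine ⟨a + l • b, U.add_mem haU (U.smul_mem _ hbU), ?_, a, haU, ?_⟩
  · rw [H.expand, hba, mul_zero, map_zero, hl]; field_simp; ring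
  · rw [H.add_left, H.smul_left, hba, mul_zero, add_zero]; exact ha

include H in
/-- a good isotropic vector orthogonal to three given vectors -/
theorem exists_hyp3 (hnd : Nd f (⊤ : Submodule F V)) (hdim : 8 ≤ Module.finrank F V) (v w e : V) :
    ∃ z, f z v = 0 ∧ f z w = 0 ∧ f z e = 0 ∧ f z z = 0 ∧ ∃ y, f y v = 0 ∧ f y w = 0 ∧ f y e = 0 ∧
      f z y ≠ 0 := by
  set U : Submodule F V := ⊤ ⊓ LinearMap.ker (H.fl v) ⊓ LinearMap.ker (H.fl w) ⊓ LinearMap.ker (H.fl e)
    with hU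
  have memU : ∀ x, x ∈ U ↔ f x v = 0 ∧ f x w = 0 ∧ f x e = 0 := by
    intro x; simp [hU, and_assoc]
  have h1 := HS.finrank_inf_ker (⊤ : Submodule F V) (H.fl v)
  have h2 := HS.finrank_inf_ker (⊤ ⊓ LinearMap.ker (H.fl v)) (H.fl w)
  have h3 := HS.finrank_inf_ker (⊤ ⊓ LinearMap.ker (H.fl v) ⊓ LinearMap.ker (H.fl w)) (H.fl e)
  rw [finrank_top] at h1
  rw [← hU] at h3
  set R : Submodule F V := Submodule.span F {v, w, e} with hR
  have hRd : Module.finrank F R ≤ 3 := by
    classical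
    have h4 := finrank_span_le_card (R := F) ({v, w, e} : Set V)
    have h5 : ({v, w, e} : Set V).toFinset.card ≤ 3 := by
      simpa using Finset.card_le_three (a := v) (b := w) (c := e)
    exact h4.trans h5
  obtain ⟨z, hz, hzz, y, hy, hzy⟩ := exists_hyp' H (U := U) (R := R) (by omega) (by
    intro u _ h
    by_contra hu
    obtain ⟨x, hx, hxu⟩ := exists_perp_ne H hnd hu
    refine hxu (h x ((memU x).2 ⟨hx v ?_, hx w ?_, hx e ?_⟩)) <;>
      exact Submodule.subset_span (by simp))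
  obtain ⟨a1, a2, a3⟩ := (memU z).1 hz
  obtain ⟨b1, b2, b3⟩ := (memU y).1 hy
  exact ⟨z, a1, a2, a3, hzz, y, b1, b2, b3, hzy⟩

/-- vectors `w` orthogonal to `v` with the transvection `x ↦ x + f(x,w) v` in `M` -/
def Psi (M : Subgroup (V ≃ₗ[F] V)) (v : V) : Set V := {w | f v w = 0 ∧ ∀ h, tr v (H.fl w) h ∈ M}

variable {H} {M : Subgroup (V ≃ₗ[F] V)}

theorem psi_add {v w w' : V} (hw : w ∈ Psi H M v) (hw' : w' ∈ Psi H M v) : w + w' ∈ Psi H M v := by
  refine ⟨by rw [H.add_right, hw.1, hw'.1, add_zero], fun h => ?_⟩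
  have e : H.fl (w + w') = H.fl w + H.fl w' := by ext x; simp [H.add_right]
  have h2 : (H.fl w + H.fl w') v = 0 := by rw [← e]; exact h
  have : tr v (H.fl (w + w')) h = tr v (H.fl w) hw.1 * tr v (H.fl w') hw'.1 := by
    rw [tr_mul v _ _ hw.1 hw'.1 h2]
    ext x; rw [tr_apply, tr_apply, e]
  rw [this]; exact mul_mem (hw.2 _) (hw'.2 _)

theorem psi_neg {v w : V} (hw : w ∈ Psi H M v) : -w ∈ Psi H M v := by
  refine ⟨by rw [H.neg_right, hw.1, neg_zero], fun h => ?_⟩
  have h0 : H.fl w v = 0 := hw.1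
  have : tr v (H.fl (-w)) h = (tr v (H.fl w) h0)⁻¹ := by
    rw [eq_inv_iff_mul_eq_one]
    ext x
    rw [LinearEquiv.mul_apply, tr_apply, tr_apply, map_add, map_smul]
    show _ = x
    have h1 : H.fl (-w) v = 0 := h
    have h2 : H.fl (-w) x = - H.fl w x := H.neg_right x w
    rw [h1, h2]; simp
  rw [this]; exact inv_mem (hw.2 _)

theorem psi_sub {v w w' : V} (hw : w ∈ Psi H M v) (hw' : w' ∈ Psi H M v) : w - w' ∈ Psi H M v := by
  rw [sub_eq_add_neg]; exact psi_add hw (psi_neg hw')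

theorem psi_map {v w : V} (hw : w ∈ Psi H M v) {t : V ≃ₗ[F] V} (ht : t ∈ M) (hti : t ∈ isom f) :
    t w ∈ Psi H M (t v) := by
  have h0 : f (t v) (t w) = 0 := by rw [hti, hw.1]
  refine ⟨h0, fun h => ?_⟩
  have e : H.fl w ∘ₗ (t⁻¹ : V ≃ₗ[F] V).toLinearMap = H.fl (t w) := by
    ext x
    have h1 := hti (t⁻¹ x) w
    rw [← LinearEquiv.mul_apply, mul_inv_cancel] at h1
    exact h1.symm
  have e2 : (H.fl w ∘ₗ (t⁻¹ : V ≃ₗ[F] V).toLinearMap) (t v) = 0 := by rw [e]; exact h
  have h1 := conj_tr t v (H.fl w) hw.1 e2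
  have h3 : tr (t v) (H.fl (t w)) h = tr (t v) (H.fl w ∘ₗ (t⁻¹ : V ≃ₗ[F] V).toLinearMap) e2 := by
    ext x; rw [tr_apply, tr_apply, e]
  rw [h3, ← h1]
  exact mul_mem (mul_mem ht (hw.2 _)) (inv_mem ht)

/-- growing `Psi` -/
theorem psi_full (hnd : Nd f (⊤ : Submodule F V)) (hdim : 8 ≤ Module.finrank F V)
    (hT : tgrp H ⊤ ≤ M) {v w : V} (hw : w ∈ Psi H M v) (hne : ∃ u, f u v = 0 ∧ f u w ≠ 0) :
    ∀ y, f v y = 0 → y ∈ Psi H M v := by
  have htop4 : 4 ≤ Module.finrank F (⊤ : Submodule F V) := by rw [finrank_top]; omega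
  have hvw := H.symm_zero hw.1
  -- isotropic e with f w e ≠ 0
  obtain ⟨e, hev, hee, hew⟩ : ∃ e, f e v = 0 ∧ f e e = 0 ∧ f e w ≠ 0 := by
    by_contra hcon
    push Not at hcon
    obtain ⟨u, huv, huw⟩ := hne
    apply huw
    obtain ⟨z, -, hze, hzz, y, -, hwe, hzw⟩ := H.exists_hyp hnd htop4 (w := v) trivial
    have h1 : u ∈ Submodule.span F {z | z ∈ ⊤ ⊓ LinearMap.ker (H.fl v) ∧ f z z = 0} :=
      H.mem_span_iso (z := z) (y := y) (by simp [*]) hzz (by simp [*]) hzw (by simp [*])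
    have h2 : Submodule.span F {z | z ∈ ⊤ ⊓ LinearMap.ker (H.fl v) ∧ f z z = 0} ≤
        LinearMap.ker (H.fl w) := by
      rw [Submodule.span_le]
      rintro e ⟨he, hee⟩
      exact hcon e (by simpa using he) hee
    exact h2 h1
  obtain ⟨z, hzv, hzw, hze, hzz, y0, hy0v, -, -, hzy⟩ := exists_hyp3 H hnd hdim v w e
  -- all multiples of z are in Psi
  have hz : ∀ c : F, c • z ∈ Psi H M v := by
    intro c
    -- rho (l e) z 0 maps w to w + f(w, l e) z - f(w,z) l e
    have hwz : f w z = 0 := H.symm_zero hzw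
    have hwe : f w e ≠ 0 := H.symm_ne hew
    have h1 : f ((σ (c / f w e)) • e) ((σ (c / f w e)) • e) = 0 := by
      rw [H.smul_left, H.smul_right, hee]; ring
    have h2 : f z ((σ (c / f w e)) • e) = 0 := by rw [H.smul_right, hze, mul_zero]
    obtain ⟨t, ht, htx⟩ := rhoIn_iso H (le_refl (tgrp H ⊤)) (e := (σ (c / f w e)) • e) (u := z)
      trivial trivial h1 hzz h2
    have h3 := psi_map hw (hT ht) (tgrp_le_isom H _ ht)
    have h4 : t v = v := by
      rw [htx, rho, H.smul_right, H.symm_zero hev, H.symm_zero hzv]; simp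
    have h5 : t w = w + c • z := by
      rw [htx, rho, H.smul_right, hwz, H.inv, div_mul_cancel₀ _ hwe]; simp
    rw [h4, h5] at h3
    have := psi_sub h3 hw
    simpa using this
  -- isotropic z' with f z z' ≠ 0
  obtain ⟨τ, hτ0, hτ⟩ := H.exists_tr0
  have hz' : ∀ z', f z' v = 0 → f z' z' = 0 → f z z' ≠ 0 → ∀ c : F, c • z' ∈ Psi H M v := by
    intro z' h1 h2 h3 c
    have h4 := psi_map (hz (c / (τ * f z z'))) (hT (tv_mem_tgrp H (W := ⊤) (w := z') trivial h2 τ hτ)) (tv_mem H _ _ _ _)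
    have h5 : tv H z' h2 τ hτ v = v := by rw [tv_apply, H.symm_zero h1]; simp
    rw [h5, tv_apply, H.smul_left] at h4
    have h6 := psi_sub h4 (hz (c / (τ * f z z')))
    have h7 : τ * (c / (τ * f z z') * f z z') = c := by field_simp
    rw [add_sub_cancel_left, h7] at h6
    exact h6
  have hyy : ∀ y, f y v = 0 → f z y ≠ 0 → ∀ c : F, c • y ∈ Psi H M v := by
    intro y h1 h2 c
    obtain ⟨a, ha⟩ := H.exists_add_norm hzz h2 (map_zero σ)
    have h3 := hz' (y + a • z) (by rw [H.add_left, H.smul_left, h1, hzv]; ring) ha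
      (by rw [H.add_right, H.smul_right, hzz, mul_zero, add_zero]; exact h2) c
    have h4 := psi_sub h3 (hz (c * a))
    have h5 : c • (y + a • z) - (c * a) • z = c • y := by module
    rwa [h5] at h4
  intro y hy
  have hy' := H.symm_zero hy
  by_cases h : f z y = 0
  · have h1 := hyy (y + y0) (by rw [H.add_left, hy', hy0v, add_zero])
      (by rw [H.add_right, h, zero_add]; exact hzy) 1
    have h2 := hyy y0 hy0v hzy 1
    have h3 := psi_sub h1 h2
    simpa using h3
  · have := hyy y hy' h 1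
    simpa using this

variable (M) in
/-- centres of full transvection groups -/
def cenSL : Set V := {v | ∀ (φ : Module.Dual F V) (h : φ v = 0), tr v φ h ∈ M}

theorem cenSL_smul {v : V} (hv : v ∈ cenSL M) (c : F) : c • v ∈ cenSL M := by
  intro φ h
  by_cases hc : c = 0
  · have : tr (c • v) φ h = 1 := by ext x; rw [tr_apply, hc]; simp
    rw [this]; exact one_mem _
  · have h1 : φ v = 0 := by
      rw [map_smul, smul_eq_mul] at h
      exact (mul_eq_zero.1 h).resolve_left hc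
    have h2 : (c • φ) v = 0 := by rw [LinearMap.smul_apply, h1, smul_zero]
    have : tr (c • v) φ h = tr v (c • φ) h2 := by
      ext x; rw [tr_apply, tr_apply, LinearMap.smul_apply, smul_eq_mul]; module
    rw [this]; exact hv _ _

theorem cenSL_map {v : V} (hv : v ∈ cenSL M) {g : V ≃ₗ[F] V} (hg : g ∈ M) : g v ∈ cenSL M := by
  intro φ h
  have h1 : (φ ∘ₗ g.toLinearMap) v = 0 := h
  have e : (φ ∘ₗ g.toLinearMap) ∘ₗ (g⁻¹ : V ≃ₗ[F] V).toLinearMap = φ := by
    ext x
    show φ (g (g⁻¹ x)) = φ x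
    rw [← LinearEquiv.mul_apply, mul_inv_cancel]; rfl
  have h2 : ((φ ∘ₗ g.toLinearMap) ∘ₗ (g⁻¹ : V ≃ₗ[F] V).toLinearMap) (g v) = 0 := by rw [e]; exact h
  have h3 := conj_tr g v (φ ∘ₗ g.toLinearMap) h1 h2
  have h4 : tr (g v) φ h = tr (g v) ((φ ∘ₗ g.toLinearMap) ∘ₗ (g⁻¹ : V ≃ₗ[F] V).toLinearMap) h2 := by
    ext x; rw [tr_apply, tr_apply, e]
  rw [h4, ← h3]
  exact mul_mem (mul_mem hg (hv _ h1)) (inv_mem hg)

theorem cenSL_add {u v : V} (hu : u ∈ cenSL M) (hv : v ∈ cenSL M) : u + v ∈ cenSL M := by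
  by_cases hdep : u ∈ Submodule.span F {v}
  · obtain ⟨c, rfl⟩ := Submodule.mem_span_singleton.1 hdep
    have := cenSL_smul hv (c + 1)
    rwa [add_smul, one_smul] at this
  · obtain ⟨φ, h1, h2⟩ := Submodule.exists_dual_map_eq_bot_of_notMem hdep inferInstance
    have h3 : φ v = 0 := by
      have : φ v ∈ (Submodule.span F {v}).map φ := ⟨v, Submodule.mem_span_singleton_self v, rfl⟩
      rw [h2] at this
      simpa using this
    have h4 : ((φ u)⁻¹ • φ) v = 0 := by rw [LinearMap.smul_apply, h3, smul_zero]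
    have := cenSL_map hu (hv ((φ u)⁻¹ • φ) h4)
    rwa [tr_apply, LinearMap.smul_apply, smul_eq_mul, inv_mul_cancel₀ h1, one_smul] at this

theorem cenSL_sub {u v : V} (hu : u ∈ cenSL M) (hv : v ∈ cenSL M) : u - v ∈ cenSL M := by
  have := cenSL_add hu (cenSL_smul hv (-1))
  rwa [neg_smul, one_smul, ← sub_eq_add_neg] at this

theorem cenSL_all (hnd : Nd f (⊤ : Submodule F V)) (hdim : 4 ≤ Module.finrank F V)
    (hT : tgrp H ⊤ ≤ M) {v : V} (hv : v ∈ cenSL M) (hv0 : v ≠ 0) : ∀ y, y ∈ cenSL M := by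
  have htop4 : 4 ≤ Module.finrank F (⊤ : Submodule F V) := by rwa [finrank_top]
  obtain ⟨τ, hτ0, hτ⟩ := H.exists_tr0
  have key : ∀ v ∈ cenSL M, ∀ z, f z z = 0 → f v z ≠ 0 → z ∈ cenSL M := by
    intro v hv z hzz hvz
    have h1 := cenSL_map hv (hT (tv_mem_tgrp H (W := ⊤) (w := z) trivial hzz τ hτ))
    rw [tv_apply] at h1
    have h2 := cenSL_sub h1 hv
    rw [add_sub_cancel_left] at h2
    have h3 := cenSL_smul h2 (τ * f v z)⁻¹
    rwa [smul_smul, inv_mul_cancel₀ (mul_ne_zero hτ0 hvz), one_smul] at h3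
  obtain ⟨z0, hz00, hvz0⟩ : ∃ z, f z z = 0 ∧ f v z ≠ 0 := by
    by_contra hcon
    push Not at hcon
    obtain ⟨y, -, hvy⟩ := hnd v trivial hv0
    apply H.symm_ne hvy
    obtain ⟨z, -, hze, hzz, w, -, hwe, hzw⟩ := H.exists_hyp hnd htop4 (w := 0) trivial
    have h1 : y ∈ Submodule.span F {z | z ∈ (⊤ : Submodule F V) ∧ f z z = 0} :=
      H.mem_span_iso (z := z) (y := w) trivial hzz trivial hzw trivial
    have h2 : Submodule.span F {z | z ∈ (⊤ : Submodule F V) ∧ f z z = 0} ≤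
        LinearMap.ker (H.fl v) := by
      rw [Submodule.span_le]
      rintro e ⟨-, hee⟩
      exact H.symm_zero (hcon e hee)
    exact h2 h1
  have hz0 := key v hv z0 hz00 hvz0
  obtain ⟨y0, -, hy0⟩ := hnd z0 trivial (by rintro rfl; exact hvz0 (H.zero_right v))
  have hyy : ∀ y, f z0 y ≠ 0 → y ∈ cenSL M := by
    intro y h2
    obtain ⟨a, ha⟩ := H.exists_add_norm hz00 h2 (map_zero σ)
    have h3 := key z0 hz0 _ ha (by rw [H.add_right, H.smul_right, hz00, mul_zero, add_zero]; exact h2)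
    have h4 := cenSL_sub h3 (cenSL_smul hz0 a)
    simpa using h4
  intro y
  by_cases h : f z0 y = 0
  · have h1 := hyy (y + y0) (by rw [H.add_right, h, zero_add]; exact hy0)
    have h2 := cenSL_sub h1 (hyy y0 hy0)
    simpa using h2
  · exact hyy y h

/-- an overgroup of `SU(f)` with an element that is not a similarity contains all transvections -/
theorem all_tr_mem_of_not_similarity (hnd : Nd f (⊤ : Submodule F V)) (hdim : 8 ≤ Module.finrank F V)
    (hT : tgrp H ⊤ ≤ M) {g : V ≃ₗ[F] V} (hg : g ∈ M)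
    (hns : ¬ ∃ c : F, c ≠ 0 ∧ ∀ x y, f (g x) (g y) = c * f x y) :
    ∀ (u : V) (φ : Module.Dual F V) (h : φ u = 0), tr u φ h ∈ M := by
  have htop4 : 4 ≤ Module.finrank F (⊤ : Submodule F V) := by rw [finrank_top]; omega
  have hgx : ∀ x, g (g⁻¹ x) = x := fun x => by
    rw [← LinearEquiv.mul_apply, mul_inv_cancel]; rfl
  have hgx' : ∀ x, g⁻¹ (g x) = x := fun x => by
    rw [← LinearEquiv.mul_apply, inv_mul_cancel]; rfl
  -- adjoint
  have hadj : ∀ v0, ∃ w, ∀ x, f (g⁻¹ x) v0 = f x w := by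
    intro v0
    obtain ⟨w, hw⟩ := fl_surj H hnd (H.fl v0 ∘ₗ (g⁻¹ : V ≃ₗ[F] V).toLinearMap)
    exact ⟨w, fun x => (LinearMap.congr_fun hw x).symm⟩
  by_cases hall : ∀ v0, f v0 v0 = 0 → ∃ c : F, ∀ x, f x v0 = c * f (g x) (g v0)
  · exfalso
    apply hns
    obtain ⟨z0, -, -, hz00, y0, -, -, hzy0⟩ := H.exists_hyp hnd htop4 (w := 0) trivial
    obtain ⟨c0, hc0⟩ := hall z0 hz00
    have hz0ne : z0 ≠ 0 := by rintro rfl; exact hzy0 (H.zero_left _)
    have hcst : ∀ v1, f v1 v1 = 0 → ∀ x, f x v1 = c0 * f (g x) (g v1) := by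
      intro v1 hv1
      by_cases hdep : ∃ l : F, v1 = l • z0
      · obtain ⟨l, rfl⟩ := hdep
        intro x
        rw [LinearEquiv.map_smul, H.smul_right, H.smul_right, hc0]; ring
      push Not at hdep
      obtain ⟨c1, hc1⟩ := hall v1 hv1
      obtain ⟨τ, hτ0, hτ⟩ := H.exists_tr0
      obtain ⟨l, hl0, hl⟩ : ∃ l : F, l ≠ 0 ∧ l * f v1 z0 + σ (l * f v1 z0) = 0 := by
        by_cases h : f v1 z0 = 0
        · exact ⟨1, one_ne_zero, by rw [h]; simp⟩
        · exact ⟨τ / f v1 z0, div_ne_zero hτ0 h, by rw [div_mul_cancel₀ _ h]; exact hτ⟩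
      have hs : f (z0 + l • v1) (z0 + l • v1) = 0 := by
        rw [H.expand, hz00, hv1]; linear_combination hl
      obtain ⟨cs, hcs⟩ := hall _ hs
      have h1 : ∀ x, f x (σ (cs - c0) • g z0 + (l * σ (cs - c1)) • g v1) = 0 := by
        intro x
        obtain ⟨x, rfl⟩ := g.surjective x
        have h2 := hcs x
        rw [map_add, LinearEquiv.map_smul, H.add_right, H.add_right, H.smul_right, H.smul_right,
          hc0 x, hc1 x] at h2
        rw [H.add_right, H.smul_right, H.smul_right, H.inv, map_mul, H.inv]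
        linear_combination -h2
      have h2 : σ (cs - c0) • g z0 + (l * σ (cs - c1)) • g v1 = 0 := by
        by_contra hne
        obtain ⟨y, -, hy⟩ := hnd _ trivial hne
        exact H.symm_ne hy (h1 y)
      rw [← LinearEquiv.map_smul, ← LinearEquiv.map_smul, ← map_add, LinearEquiv.map_eq_zero_iff] at h2
      have h3 : l * σ (cs - c1) = 0 := by
        by_contra hne
        apply hdep (-((l * σ (cs - c1))⁻¹ * σ (cs - c0)))
        have h4 : (l * σ (cs - c1)) • v1 = -(σ (cs - c0) • z0) := eq_neg_of_add_eq_zero_right h2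
        rw [neg_smul, mul_smul, ← smul_neg, ← h4, smul_smul, inv_mul_cancel₀ hne, one_smul]
      rw [h3, zero_smul, add_zero] at h2
      have h5 : σ (cs - c0) = 0 := (smul_eq_zero.1 h2).resolve_right hz0ne
      have h6 : cs = c0 := by
        have : cs - c0 = 0 := by rw [← H.inv (cs - c0), h5, map_zero]
        exact sub_eq_zero.1 this
      have h7 : cs = c1 := by
        have h8 : σ (cs - c1) = 0 := (mul_eq_zero.1 h3).resolve_left hl0
        have : cs - c1 = 0 := by rw [← H.inv (cs - c1), h8, map_zero]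
        exact sub_eq_zero.1 this
      intro x
      rw [hc1 x, ← h7, h6]
    have hlin : ∀ y x, f x y = c0 * f (g x) (g y) := by
      intro y
      have h1 : y ∈ Submodule.span F {z | z ∈ (⊤ : Submodule F V) ∧ f z z = 0} :=
        H.mem_span_iso (z := z0) (y := y0) trivial hz00 trivial hzy0 trivial
      refine Submodule.span_induction ?_ ?_ ?_ ?_ h1
      · rintro z ⟨-, hz⟩; exact hcst z hz
      · intro x; rw [map_zero, H.zero_right, H.zero_right, mul_zero]
      · intro a b _ _ ha hb x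
        rw [map_add, H.add_right, H.add_right, ha, hb]; ring
      · intro a b _ hb x
        rw [LinearEquiv.map_smul, H.smul_right, H.smul_right, hb]; ring
    have hc00 : c0 ≠ 0 := by
      rintro rfl
      have := hlin y0 z0
      rw [zero_mul] at this
      exact hzy0 this
    refine ⟨c0⁻¹, inv_ne_zero hc00, fun x y => ?_⟩
    rw [hlin y x, ← mul_assoc, inv_mul_cancel₀ hc00, one_mul]
  · push Not at hall
    obtain ⟨v0, hv0, hv0c⟩ := hall
    obtain ⟨w, hw⟩ := hadj v0
    have hwspan : w ∉ Submodule.span F {g v0} := by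
      intro h
      obtain ⟨c, hc⟩ := Submodule.mem_span_singleton.1 h
      obtain ⟨x, hx⟩ := hv0c (σ c)
      apply hx
      have h1 := hw (g x)
      rw [hgx', ← hc, H.smul_right] at h1
      exact h1
    have hne : ∃ u, f u (g v0) = 0 ∧ f u w ≠ 0 := by
      by_contra hcon
      push Not at hcon
      exact hwspan (H.mem_span_of_perp hnd trivial trivial fun x _ hx => hcon x hx)
    obtain ⟨τ, hτ0, hτ⟩ := H.exists_tr0
    have hpsi : σ τ • w ∈ Psi H M (g v0) := by
      have h0 : f (g v0) w = 0 := by rw [← hw, hgx', hv0]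
      refine ⟨by rw [H.smul_right, h0, mul_zero], fun h => ?_⟩
      have : tr (g v0) (H.fl (σ τ • w)) h = g * tv H v0 hv0 τ hτ * g⁻¹ := by
        ext x
        rw [tr_apply, LinearEquiv.mul_apply, LinearEquiv.mul_apply, tv_apply, map_add,
          LinearEquiv.map_smul g, hgx, hw]
        show x + f x (σ τ • w) • g v0 = _
        rw [H.smul_right, H.inv]
      rw [this]
      exact mul_mem (mul_mem hg (hT (tv_mem_tgrp H (W := ⊤) trivial _ _ _))) (inv_mem hg)
    have hne' : ∃ u, f u (g v0) = 0 ∧ f u (σ τ • w) ≠ 0 := by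
      obtain ⟨u, h1, h2⟩ := hne
      refine ⟨u, h1, ?_⟩
      rw [H.smul_right, H.inv]
      exact mul_ne_zero hτ0 h2
    have hfull := psi_full hnd hdim hT hpsi hne'
    have hgv0 : g v0 ≠ 0 := by
      intro h
      apply hwspan
      have hv00 : v0 = 0 := by simpa using h
      have : w = 0 := by
        by_contra hne
        obtain ⟨y, -, hy⟩ := hnd w trivial hne
        apply H.symm_ne hy
        rw [← hw, hv00, H.zero_right]
      rw [this]; exact Submodule.zero_mem _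
    have hcen : g v0 ∈ cenSL M := by
      intro φ h
      obtain ⟨y, rfl⟩ := fl_surj H hnd φ
      exact (hfull y h).2 h
    exact fun u => cenSL_all hnd (by omega) hT hcen hgv0 u

end Cfsg.Agent.Lib.SLUn
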