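import Mathlib
import Cfsg.Agent.Lib.SLMax
import Cfsg.Agent.Lib.SLUn

set_option autoImplicit false
set_option linter.unusedSectionVars false
set_option linter.unusedSimpArgs false
set_option linter.unusedVariables false

/-!
Overgroups of the stabiliser of a decomposition into subspaces of dimension at least two.
-/

namespace Cfsg.Agent.Lib.SLBlockH94

open Module Cfsg.Agent.Lib.SLMax Cfsg.Agent.Lib.SLUn

variable {F V κ : Type*} [Field F] [AddCommGroup V] [Module F V] [FiniteDimensional F V] [Fintype κ]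
  [DecidableEq κ] {M : Subgroup (V ≃ₗ[F] V)}

/-- full root groups -/
def RG (M : Subgroup (V ≃ₗ[F] V)) (v : V) (φ : Dual F V) : Prop :=
  φ v = 0 ∧ ∀ c : F, ∃ g ∈ M, ∀ x, g x = x + (c * φ x) • v

theorem RG.map {v : V} {φ : Dual F V} (h : RG M v φ) {g : V ≃ₗ[F] V} (hg : g ∈ M) {ψ : Dual F V}
    (hψ : ∀ x, ψ (g x) = φ x) : RG M (g v) ψ := by
  refine ⟨by rw [hψ, h.1], fun c => ?_⟩
  obtain ⟨t, ht, htx⟩ := h.2 c
  refine ⟨g * t * g⁻¹, mul_mem (mul_mem hg ht) (inv_mem hg), fun x => ?_⟩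
  obtain ⟨x, rfl⟩ := g.surjective x
  have e : (g * t * g⁻¹) (g x) = g (t x) := by
    show (g * t * g⁻¹ * g) x = _
    rw [inv_mul_cancel_right]; rfl
  rw [e, htx, map_add, LinearEquiv.map_smul, hψ]

theorem RG.map' {v : V} {φ : Dual F V} (h : RG M v φ) {g : V ≃ₗ[F] V} (hg : g ∈ M) :
    RG M (g v) (φ ∘ₗ (g⁻¹ : V ≃ₗ[F] V).toLinearMap) :=
  h.map hg (fun x => by
    show φ (g⁻¹ (g x)) = φ x
    rw [← LinearEquiv.mul_apply, inv_mul_cancel]; rfl)

theorem RG.smul {v : V} {φ : Dual F V} (h : RG M v φ) (a : F) : RG M (a • v) φ := by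
  refine ⟨by rw [map_smul, h.1, smul_zero], fun c => ?_⟩
  obtain ⟨t, ht, htx⟩ := h.2 (c * a)
  exact ⟨t, ht, fun x => by rw [htx]; module⟩

theorem RG.smul_right {v : V} {φ : Dual F V} (h : RG M v φ) (a : F) : RG M v (a • φ) := by
  refine ⟨by rw [LinearMap.smul_apply, h.1, smul_zero], fun c => ?_⟩
  obtain ⟨t, ht, htx⟩ := h.2 (c * a)
  exact ⟨t, ht, fun x => by rw [htx, LinearMap.smul_apply, smul_eq_mul]; module⟩

theorem RG.add {v w : V} {φ : Dual F V} (h : RG M v φ) (h' : RG M w φ) : RG M (v + w) φ := by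
  refine ⟨by rw [map_add, h.1, h'.1, add_zero], fun c => ?_⟩
  obtain ⟨t, ht, htx⟩ := h.2 c
  obtain ⟨t', ht', htx'⟩ := h'.2 c
  refine ⟨t * t', mul_mem ht ht', fun x => ?_⟩
  rw [LinearEquiv.mul_apply, htx', htx, map_add, map_smul, h'.1]
  simp only [smul_zero, add_zero, smul_eq_mul, mul_zero]
  module

theorem RG.add_right {v : V} {φ ψ : Dual F V} (h : RG M v φ) (h' : RG M v ψ) : RG M v (φ + ψ) := by
  refine ⟨by rw [LinearMap.add_apply, h.1, h'.1, add_zero], fun c => ?_⟩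
  obtain ⟨t, ht, htx⟩ := h.2 c
  obtain ⟨t', ht', htx'⟩ := h'.2 c
  refine ⟨t * t', mul_mem ht ht', fun x => ?_⟩
  rw [LinearEquiv.mul_apply, htx', htx, map_add, map_smul, h.1, LinearMap.add_apply]
  simp only [smul_zero, add_zero, smul_eq_mul, mul_zero]
  module

theorem RG.sub {v w : V} {φ : Dual F V} (h : RG M v φ) (h' : RG M w φ) : RG M (v - w) φ := by
  have := h.add (h'.smul (-1))
  have e : v - w = v + (-1 : F) • w := by module
  rw [e]; exact this

theorem RG.sub_right {v : V} {φ ψ : Dual F V} (h : RG M v φ) (h' : RG M v ψ) : RG M v (φ - ψ) := by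
  have := h.add_right (h'.smul_right (-1))
  have e : φ - ψ = φ + (-1 : F) • ψ := by module
  rw [e]; exact this

/-- commutators -/
theorem RG.comm {v w : V} {φ ψ : Dual F V} (h : RG M v φ) (h' : RG M w ψ) (h1 : φ w = 0) (h2 : ψ v ≠ 0) :
    RG M w φ := by
  refine ⟨h1, fun c => ?_⟩
  obtain ⟨x, hx, hxx⟩ := h.2 (c / -(ψ v))
  obtain ⟨y, hy, hyy⟩ := h'.2 1
  have hxi : ∀ z, x⁻¹ z = z - ((c / -(ψ v)) * φ z) • v := by
    intro z
    apply x.injective
    rw [← LinearEquiv.mul_apply, mul_inv_cancel, hxx, map_sub, map_smul, h.1]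
    show z = _
    simp
  have hyi : ∀ z, y⁻¹ z = z - (1 * ψ z) • w := by
    intro z
    apply y.injective
    rw [← LinearEquiv.mul_apply, mul_inv_cancel, hyy, map_sub, map_smul, h'.1]
    show z = _
    simp
  refine ⟨x * y * x⁻¹ * y⁻¹, mul_mem (mul_mem (mul_mem hx hy) (inv_mem hx)) (inv_mem hy), fun z => ?_⟩
  rw [LinearEquiv.mul_apply, LinearEquiv.mul_apply, LinearEquiv.mul_apply, hxx, hyy, hxi, hyi]
  simp only [map_add, map_sub, map_smul, h.1, h'.1, h1, smul_eq_mul, mul_zero, sub_zero, add_zero]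
  match_scalars
  · ring
  · field_simp; ring
  · field_simp; ring

theorem RG.mem {v : V} {φ : Dual F V} (h : RG M v φ) : tr v φ h.1 ∈ M := by
  obtain ⟨t, ht, htx⟩ := h.2 1
  have : tr v φ h.1 = t := by
    apply LinearEquiv.ext
    intro x
    rw [tr_apply, htx, one_mul]
  rw [this]; exact ht

/-- projections of a decomposition -/
structure Dec (D : κ → Submodule F V) (pr : κ → V →ₗ[F] V) : Prop where
  mem : ∀ i v, pr i v ∈ D i
  self : ∀ i v, v ∈ D i → pr i v = v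
  zero : ∀ i j v, i ≠ j → v ∈ D j → pr i v = 0
  sum : ∀ v, ∑ i, pr i v = v

theorem exists_dec {D : κ → Submodule F V} (hi : iSupIndep D) (hs : iSup D = ⊤) : ∃ pr, Dec D pr := by
  have hc : ∀ i, IsCompl (D i) (⨆ (j) (_ : j ≠ i), D j) := by
    intro i
    refine ⟨hi i, ?_⟩
    rw [codisjoint_iff, eq_top_iff, ← hs]
    apply iSup_le
    intro j
    by_cases hij : j = i
    · subst hij; exact le_sup_left
    · exact (le_iSup₂_of_le (f := fun j (_ : j ≠ i) => D j) j hij le_rfl).trans le_sup_right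
  obtain ⟨pr, hpr⟩ : ∃ pr : κ → V →ₗ[F] V, ∀ i v, pr i v = ((D i).linearProjOfIsCompl _ (hc i) v : V) :=
    ⟨fun i => (D i).subtype ∘ₗ (D i).linearProjOfIsCompl _ (hc i), fun i v => rfl⟩
  have hself : ∀ i v, v ∈ D i → pr i v = v := by
    intro i v hv
    rw [hpr]
    have := Submodule.linearProjOfIsCompl_apply_left (hc i) ⟨v, hv⟩
    exact congrArg Subtype.val this
  have hzero : ∀ i j v, i ≠ j → v ∈ D j → pr i v = 0 := by
    intro i j v hij hv
    rw [hpr]
    have hv' : v ∈ ⨆ (j) (_ : j ≠ i), D j :=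
      (le_iSup₂_of_le (f := fun j (_ : j ≠ i) => D j) j (Ne.symm hij) le_rfl) hv
    have := Submodule.linearProjOfIsCompl_apply_right (hc i) ⟨v, hv'⟩
    exact congrArg Subtype.val this
  refine ⟨pr, fun i v => by rw [hpr]; exact SetLike.coe_mem _, hself, hzero, fun v => ?_⟩
  have hv : v ∈ iSup D := by rw [hs]; trivial
  refine Submodule.iSup_induction D (motive := fun v => ∑ i, pr i v = v) hv ?_ ?_ ?_
  · intro j x hx
    rw [Finset.sum_eq_single j (fun i _ hij => hzero i j x hij hx) (fun h => absurd (Finset.mem_univ j) h),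
      hself j x hx]
  · simp
  · intro x y hx hy
    simp only [map_add, Finset.sum_add_distrib, hx, hy]

namespace Dec

variable {D : κ → Submodule F V} {pr : κ → V →ₗ[F] V} (R : Dec D pr)
include R

/-- functionals supported on a block -/
theorem dual_ext (i : κ) (φ : Dual F V) (x : V) : (φ ∘ₗ pr i) (pr i x) = (φ ∘ₗ pr i) x := by
  show φ (pr i (pr i x)) = φ (pr i x)
  rw [R.self i _ (R.mem i x)]

theorem dual_zero {i j : κ} (hij : i ≠ j) {φ : Dual F V} (hφ : ∀ x, φ (pr i x) = φ x) {v : V} (hv : v ∈ D j) :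
    φ v = 0 := by
  rw [← hφ, R.zero i j v hij hv, map_zero]

/-- separation inside a block -/
theorem exists_fun {i : κ} {x : V} (hx : x ∈ D i) {W : Submodule F V} (hxW : x ∉ W) (hW : W ≤ D i) :
    ∃ φ : Dual F V, (∀ y, φ (pr i y) = φ y) ∧ φ x = 1 ∧ ∀ w ∈ W, φ w = 0 := by
  obtain ⟨f, h1, h2⟩ := Submodule.exists_le_ker_of_notMem hxW
  refine ⟨(f x)⁻¹ • (f ∘ₗ pr i), fun y => ?_, ?_, fun w hw => ?_⟩
  · show (f x)⁻¹ * f (pr i (pr i y)) = (f x)⁻¹ * f (pr i y)
    rw [R.self i _ (R.mem i y)]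
  · show (f x)⁻¹ * f (pr i x) = 1
    rw [R.self i x hx, inv_mul_cancel₀ h1]
  · show (f x)⁻¹ * f (pr i w) = 0
    rw [R.self i w (hW hw), show f w = 0 from h2 hw, mul_zero]

theorem exists_fun1 {i : κ} {x : V} (hx : x ∈ D i) (hx0 : x ≠ 0) :
    ∃ φ : Dual F V, (∀ y, φ (pr i y) = φ y) ∧ φ x = 1 := by
  obtain ⟨φ, h1, h2, -⟩ := R.exists_fun hx (W := ⊥) (by rwa [Submodule.mem_bot]) bot_le
  exact ⟨φ, h1, h2⟩

omit R in
theorem exists_out {U W : Submodule F V} (h : finrank F W < finrank F U) : ∃ x ∈ U, x ∉ W := by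
  by_contra hcon
  push Not at hcon
  have := Submodule.finrank_mono (show U ≤ W from hcon)
  omega

/-- a nonzero functional in a block killing one vector -/
theorem exists_kill {i : κ} (hm : 2 ≤ finrank F (D i)) {v : V} (hv : v ∈ D i) :
    ∃ φ : Dual F V, (∀ y, φ (pr i y) = φ y) ∧ φ ≠ 0 ∧ φ v = 0 := by
  have h1 : finrank F (Submodule.span F {v}) ≤ 1 := by
    have := finrank_span_le_card (R := F) ({v} : Set V)
    simpa using this
  obtain ⟨x, hx, hxv⟩ := exists_out (U := D i) (W := Submodule.span F {v}) (by omega)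
  obtain ⟨φ, h2, h3, h4⟩ := R.exists_fun hx hxv ((Submodule.span_singleton_le_iff_mem _ _).2 hv)
  refine ⟨φ, h2, ?_, h4 v (Submodule.mem_span_singleton_self v)⟩
  rintro rfl
  exact zero_ne_one h3

/-- a nonzero functional in a block killing two vectors -/
theorem exists_kill2 {i : κ} (hm : 3 ≤ finrank F (D i)) {v w : V} (hv : v ∈ D i) (hw : w ∈ D i) :
    ∃ φ : Dual F V, (∀ y, φ (pr i y) = φ y) ∧ φ ≠ 0 ∧ φ v = 0 ∧ φ w = 0 := by
  classical
  have h1 : finrank F (Submodule.span F {v, w}) ≤ 2 := by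
    have := finrank_span_finset_le_card (R := F) ({v, w} : Finset V)
    rw [Finset.coe_pair] at this
    exact this.trans Finset.card_le_two
  obtain ⟨x, hx, hxv⟩ := exists_out (U := D i) (W := Submodule.span F {v, w}) (by omega)
  obtain ⟨φ, h2, h3, h4⟩ := R.exists_fun hx hxv (by
    rw [Submodule.span_le]
    rintro y (rfl | rfl)
    · exact hv
    · exact hw)
  refine ⟨φ, h2, ?_, h4 v (Submodule.subset_span (by simp)), h4 w (Submodule.subset_span (by simp))⟩
  rintro rfl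
  exact zero_ne_one h3

omit R in
/-- a nonzero vector in a block killed by a functional -/
theorem exists_ker {i : κ} (hm : 2 ≤ finrank F (D i)) (φ : Dual F V) : ∃ v ∈ D i, v ≠ 0 ∧ φ v = 0 := by
  have h1 := LinearMap.finrank_range_add_finrank_ker (φ.domRestrict (D i))
  have h2 : finrank F (LinearMap.range (φ.domRestrict (D i))) ≤ 1 := by
    have := Submodule.finrank_le (LinearMap.range (φ.domRestrict (D i)))
    rwa [finrank_self] at this
  have h3 : 0 < finrank F (LinearMap.ker (φ.domRestrict (D i))) := by omega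
  obtain ⟨x, hx⟩ := (Module.finrank_pos_iff_exists_ne_zero).1 h3
  refine ⟨x.1, x.1.2, ?_, ?_⟩
  · intro h
    apply hx
    apply Subtype.ext
    apply Subtype.ext
    exact h
  · have := x.2
    rw [LinearMap.mem_ker] at this
    exact this

/-- the group contains the special linear groups of the blocks -/
def HT (D : κ → Submodule F V) (pr : κ → V →ₗ[F] V) (M : Subgroup (V ≃ₗ[F] V)) : Prop :=
  ∀ (i : κ) (v : V) (φ : Dual F V), v ∈ D i → (∀ x, φ (pr i x) = φ x) → φ v = 0 → RG M v φ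

/-- L1: fixed functional -/
theorem spread1 (hT : HT D pr M) {i j : κ} (hij : i ≠ j) {φ : Dual F V} (hφ : ∀ x, φ (pr i x) = φ x) {v₀ : V}
    (hv₀ : v₀ ∈ D j) (h0 : v₀ ≠ 0) (h : RG M v₀ φ) {v : V} (hv : v ∈ D j) : RG M v φ := by
  by_cases hdep : v₀ ∈ Submodule.span F {v}
  · obtain ⟨c, hc⟩ := Submodule.mem_span_singleton.1 hdep
    have hc0 : c ≠ 0 := by rintro rfl; rw [zero_smul] at hc; exact h0 hc.symm
    have := h.smul c⁻¹
    rwa [← hc, smul_smul, inv_mul_cancel₀ hc0, one_smul] at this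
  · obtain ⟨ψ, h1, h2, h3⟩ := R.exists_fun hv₀ hdep ((Submodule.span_singleton_le_iff_mem _ _).2 hv)
    have h4 := hT j v ψ hv h1 (h3 v (Submodule.mem_span_singleton_self v))
    obtain ⟨t, ht, htx⟩ := h4.2 1
    have h5 : RG M (t v₀) φ := h.map ht (fun x => by
      rw [htx, map_add, map_smul, R.dual_zero hij hφ hv, smul_zero, add_zero])
    rw [htx, h2, mul_one, one_smul] at h5
    have := h5.sub h
    rwa [add_sub_cancel_left] at this

/-- L1: fixed vector -/
theorem spread2 (hT : HT D pr M) {i j : κ} (hij : i ≠ j) {v : V} (hv : v ∈ D j) {φ₀ : Dual F V}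
    (hφ₀ : ∀ x, φ₀ (pr i x) = φ₀ x) (h0 : φ₀ ≠ 0) (h : RG M v φ₀) {φ : Dual F V} (hφ : ∀ x, φ (pr i x) = φ x) :
    RG M v φ := by
  by_cases hdep : ∀ a, φ a = 0 → φ₀ a = 0
  · -- φ₀ is a multiple of φ
    obtain ⟨a, ha⟩ : ∃ a, φ₀ a ≠ 0 := by
      by_contra hcon
      push Not at hcon
      exact h0 (LinearMap.ext hcon)
    have ha' : φ a ≠ 0 := fun h => ha (hdep a h)
    have h1 : φ = (φ a / φ₀ a) • φ₀ := by
      apply LinearMap.ext
      intro x
      have h2 := hdep (x - (φ x / φ a) • a) (by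
        rw [map_sub, map_smul, smul_eq_mul, div_mul_cancel₀ _ ha', sub_self])
      rw [map_sub, map_smul, smul_eq_mul, sub_eq_zero] at h2
      rw [LinearMap.smul_apply, smul_eq_mul, h2]
      field_simp
    rw [h1]
    exact h.smul_right _
  · push Not at hdep
    obtain ⟨a, ha1, ha2⟩ := hdep
    obtain ⟨a', ha'⟩ : ∃ a', a' = (φ₀ a)⁻¹ • pr i a := ⟨_, rfl⟩
    have ha'D : a' ∈ D i := by rw [ha']; exact Submodule.smul_mem _ _ (R.mem i a)
    have e1 : φ a' = 0 := by rw [ha', map_smul, hφ, ha1, smul_zero]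
    have e2 : φ₀ a' = 1 := by rw [ha', map_smul, hφ₀, smul_eq_mul, inv_mul_cancel₀ ha2]
    have h4 := hT i a' φ ha'D hφ e1
    obtain ⟨t, ht, htx⟩ := h4.2 1
    have htv : t v = v := by
      rw [htx, R.dual_zero hij hφ hv]; simp
    have h5 : RG M (t v) (φ₀ - φ) := h.map ht (fun x => by
      rw [htx]
      simp only [LinearMap.sub_apply, map_add, map_smul, e1, e2, smul_eq_mul]
      ring)
    rw [htv] at h5
    have := h.sub_right h5
    rwa [sub_sub_cancel] at this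

/-- permutations of the blocks -/
def HP (D : κ → Submodule F V) (M : Subgroup (V ≃ₗ[F] V)) : Prop :=
  ∀ σ : Equiv.Perm κ, ∃ g ∈ M, ∀ i, (D i).map (g : V →ₗ[F] V) = D (σ i)

/-- L2 and L3: everything from one pair -/
theorem all_of_pair (hT : HT D pr M) (hP : HP D M) {i j : κ} (hij : i ≠ j) {φ₀ : Dual F V}
    (hφ₀ : ∀ x, φ₀ (pr i x) = φ₀ x) (h0 : φ₀ ≠ 0) {v₀ : V} (hv₀ : v₀ ∈ D j) (hv0 : v₀ ≠ 0) (h : RG M v₀ φ₀) :
    ∀ (u : V) (φ : Dual F V) (h : φ u = 0), tr u φ h ∈ M := by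
  have h1 : ∀ (v : V) (φ : Dual F V), v ∈ D j → (∀ x, φ (pr i x) = φ x) → RG M v φ := by
    intro v φ hv hφ
    exact R.spread2 hT hij hv hφ₀ h0 (R.spread1 hT hij hφ₀ hv₀ hv0 h hv) hφ
  have h2 : ∀ (i' j' : κ) (v : V) (φ : Dual F V), i' ≠ j' → v ∈ D j' → (∀ x, φ (pr i' x) = φ x) → RG M v φ := by
    intro i' j' v φ hij' hv hφ
    obtain ⟨σ, hσ1, hσ2⟩ : ∃ σ : Equiv.Perm κ, σ i = i' ∧ σ j = j' := by
      refine ⟨Equiv.swap (Equiv.swap i i' j) j' * Equiv.swap i i', ?_, ?_⟩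
      · rw [Equiv.Perm.mul_apply, Equiv.swap_apply_left, Equiv.swap_apply_of_ne_of_ne ?_ hij']
        intro h
        apply hij
        apply (Equiv.swap i i').injective
        rw [Equiv.swap_apply_left]; exact h
      · rw [Equiv.Perm.mul_apply, Equiv.swap_apply_left]
    obtain ⟨g, hg, hgD⟩ := hP σ
    have hv' : v ∈ (D j).map (g : V →ₗ[F] V) := by rw [hgD, hσ2]; exact hv
    obtain ⟨u, hu, rfl⟩ := hv'
    have h3 := h1 u (φ ∘ₗ (g : V →ₗ[F] V)) hu (fun x => by
      show φ (g (pr i x)) = φ (g x)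
      conv_rhs => rw [← R.sum x]
      rw [map_sum, map_sum, Finset.sum_eq_single i]
      · intro l _ hl
        have h4 : g (pr l x) ∈ D (σ l) := by rw [← hgD]; exact ⟨_, R.mem l x, rfl⟩
        refine R.dual_zero (i := i') (fun h5 => hl ?_) hφ h4
        apply σ.injective
        rw [hσ1]; exact h5.symm
      · intro h; exact absurd (Finset.mem_univ i) h)
    exact h3.map hg (fun x => rfl)
  have h3 : ∀ (j : κ) (v : V), v ∈ D j → v ∈ cenSL M := by
    intro j v hv φ hφ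
    have h4 : ∀ i, RG M v (φ ∘ₗ pr i) := by
      intro i
      by_cases hij : i = j
      · subst hij
        exact hT i v _ hv (R.dual_ext i φ) (by show φ (pr i v) = 0; rw [R.self i v hv, hφ])
      · exact h2 i j v _ hij hv (R.dual_ext i φ)
    have h5 : ∀ s : Finset κ, RG M v (∑ i ∈ s, φ ∘ₗ pr i) := by
      intro s
      induction s using Finset.induction_on with
      | empty => exact ⟨rfl, fun c => ⟨1, one_mem _, fun x => by simp⟩⟩
      | insert a s has ih => rw [Finset.sum_insert has]; exact (h4 a).add_right ih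
    have h6 : φ = ∑ i, φ ∘ₗ pr i := by
      apply LinearMap.ext
      intro x
      rw [LinearMap.sum_apply]
      conv_lhs => rw [← R.sum x]
      rw [map_sum]; rfl
    have h7 := h5 Finset.univ
    rw [← h6] at h7
    exact h7.mem
  intro u φ hφ
  have h4 : ∀ u, u ∈ cenSL M := by
    intro u
    rw [← R.sum u]
    have : ∀ s : Finset κ, ∑ i ∈ s, pr i u ∈ cenSL M := by
      intro s
      induction s using Finset.induction_on with
      | empty =>
        intro φ h
        have : tr (∑ i ∈ (∅ : Finset κ), pr i u) φ h = 1 := by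
          apply LinearEquiv.ext
          intro v
          rw [tr_apply]; simp
        rw [this]; exact one_mem _
      | insert a s has ih =>
        rw [Finset.sum_insert has]
        exact cenSL_add (h3 a _ (R.mem a u)) ih
    exact this _
  exact h4 u φ hφ

/-- L4 -/
theorem stepB (hT : HT D pr M) (hP : HP D M) (hm : ∀ i, 2 ≤ finrank F (D i)) {i : κ} {φ : Dual F V}
    (hφ : ∀ x, φ (pr i x) = φ x) (h0 : φ ≠ 0) {w : V} (hw : w ∉ D i) (h : RG M w φ) :
    ∀ (u : V) (φ : Dual F V) (h : φ u = 0), tr u φ h ∈ M := by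
  obtain ⟨j, hji, hj⟩ : ∃ j, j ≠ i ∧ pr j w ≠ 0 := by
    by_contra hcon
    push Not at hcon
    apply hw
    rw [← R.sum w, Finset.sum_eq_single i (fun l _ hl => hcon l hl) (fun h => absurd (Finset.mem_univ i) h)]
    exact R.mem i w
  obtain ⟨ψ, h1, h2⟩ := R.exists_fun1 (R.mem j w) hj
  obtain ⟨v, hv, hv0, hψv⟩ := exists_ker (hm j) ψ
  obtain ⟨t, ht, htx⟩ := (hT j v ψ hv h1 hψv).2 1
  have h5 : RG M (t w) φ := h.map ht (fun x => by
    rw [htx, map_add, map_smul, R.dual_zero (Ne.symm hji) hφ hv, smul_zero, add_zero])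
  rw [htx, ← h1, h2, mul_one, one_smul] at h5
  have h6 := h5.sub h
  rw [add_sub_cancel_left] at h6
  exact R.all_of_pair hT hP (Ne.symm hji) hφ h0 hv hv0 h6

/-- L4 dual -/
theorem stepB' (hT : HT D pr M) (hP : HP D M) (hm : ∀ i, 2 ≤ finrank F (D i)) {i : κ} {v : V} (hv : v ∈ D i)
    (hv0 : v ≠ 0) {ψ : Dual F V} (hψ : ∃ j, j ≠ i ∧ ∃ x, ψ (pr j x) ≠ 0) (h : RG M v ψ) :
    ∀ (u : V) (φ : Dual F V) (h : φ u = 0), tr u φ h ∈ M := by
  obtain ⟨j, hji, x, hx⟩ := hψ
  obtain ⟨a, ha⟩ : ∃ a, a = (ψ (pr j x))⁻¹ • pr j x := ⟨_, rfl⟩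
  have haD : a ∈ D j := by rw [ha]; exact Submodule.smul_mem _ _ (R.mem j x)
  have hψa : ψ a = 1 := by rw [ha, map_smul, smul_eq_mul, inv_mul_cancel₀ hx]
  obtain ⟨φ, h1, h2, h3⟩ := R.exists_kill (hm j) haD
  obtain ⟨t, ht, htx⟩ := (hT j a φ haD h1 h3).2 1
  have htv : t v = v := by rw [htx, R.dual_zero hji h1 hv]; simp
  have h5 : RG M (t v) (ψ - φ) := h.map ht (fun y => by
    rw [htx]
    simp only [LinearMap.sub_apply, map_add, map_smul, hψa, h3, smul_eq_mul]
    ring)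
  rw [htv] at h5
  have h6 := h.sub_right h5
  rw [sub_sub_cancel] at h6
  exact R.all_of_pair hT hP hji h1 h2 hv hv0 h6

/-- case (iii) -/
theorem case3 (hT : HT D pr M) (hP : HP D M) (hm : ∀ i, 2 ≤ finrank F (D i)) {i : κ} {w : V} {ψ : Dual F V}
    (h : RG M w ψ) (hw : w ∉ D i) (h1 : ψ (pr i w) ≠ 0) :
    ∀ (u : V) (φ : Dual F V) (h : φ u = 0), tr u φ h ∈ M := by
  obtain ⟨φ, h2, h3, h4⟩ := R.exists_kill (hm i) (R.mem i w)
  have h5 := hT i (pr i w) φ (R.mem i w) h2 h4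
  exact R.stepB hT hP hm h2 h3 hw (h5.comm h (by rw [← h2]; exact h4) h1)

/-- double homologies -/
def HH (D : κ → Submodule F V) (pr : κ → V →ₗ[F] V) (M : Subgroup (V ≃ₗ[F] V)) : Prop :=
  ∀ (j k : κ) (y y' : V) (α β : Dual F V) (δ : F), j ≠ k → δ ≠ 0 → y ∈ D j → y' ∈ D k → (∀ x, α (pr j x) = α x) →
    (∀ x, β (pr k x) = β x) → α y = 1 → β y' = 1 → ∃ g ∈ M, ∀ x, g x = x + ((δ - 1) * α x) • y + ((δ⁻¹ - 1) * β x) • y'

/-- the main step -/
theorem main_step (hT : HT D pr M) (hP : HP D M) (hH : HH D pr M) {m : ℕ} (hm2 : 2 ≤ m)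
    (hm : ∀ i, finrank F (D i) = m) (hδ : m = 2 → ∃ δ : F, δ ≠ 0 ∧ δ ≠ 1) (hκ : m = 2 → 3 ≤ Fintype.card κ)
    {w : V} {ψ : Dual F V} (h : RG M w ψ) (hw0 : w ≠ 0) (hψ0 : ψ ≠ 0) (hw : ∀ i, w ∉ D i) :
    ∀ (u : V) (φ : Dual F V) (h : φ u = 0), tr u φ h ∈ M := by
  have hm' : ∀ i, 2 ≤ finrank F (D i) := fun i => by rw [hm]; exact hm2
  by_cases c3 : ∃ i, ψ (pr i w) ≠ 0
  · obtain ⟨i, hi⟩ := c3
    exact R.case3 hT hP hm' h (hw i) hi
  push Not at c3
  by_cases c1 : ∃ i, pr i w = 0 ∧ ∃ x, ψ (pr i x) ≠ 0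
  · obtain ⟨i, hi, x, hx⟩ := c1
    obtain ⟨φ, h2, h3, h4⟩ := R.exists_kill (hm' i) (R.mem i x)
    have h5 := hT i (pr i x) φ (R.mem i x) h2 h4
    exact R.stepB hT hP hm' h2 h3 (hw i) (h5.comm h (by rw [← h2, hi, map_zero]) hx)
  push Not at c1
  by_cases c2 : ∃ i, pr i w ≠ 0 ∧ ∀ x, ψ (pr i x) = 0
  · obtain ⟨i, hi, hx⟩ := c2
    obtain ⟨φ, h1, h2⟩ := R.exists_fun1 (R.mem i w) hi
    obtain ⟨v, hv, hv0, hφv⟩ := exists_ker (hm' i) φ
    have h5 := hT i v φ hv h1 hφv
    have hψv : ψ v = 0 := by rw [← R.self i v hv]; exact hx v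
    have h6 := h.comm h5 hψv (by rw [← h1, h2]; exact one_ne_zero)
    refine R.stepB' hT hP hm' hv hv0 ?_ h6
    by_contra hcon
    push Not at hcon
    apply hψ0
    apply LinearMap.ext
    intro x
    rw [← R.sum x, map_sum]
    apply Finset.sum_eq_zero
    intro l _
    by_cases hl : l = i
    · rw [hl]; exact hx x
    · exact hcon l hl x
  push Not at c2
  -- a block with both nonzero
  obtain ⟨i, hi⟩ : ∃ i, pr i w ≠ 0 := by
    by_contra hcon
    push Not at hcon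
    apply hw0
    rw [← R.sum w]
    exact Finset.sum_eq_zero fun l _ => hcon l
  obtain ⟨xi, hxi⟩ := c2 i hi
  rcases Nat.lt_or_ge m 3 with hm3 | hm3
  · -- m = 2
    have hmm : m = 2 := by omega
    obtain ⟨j, hji, hj⟩ : ∃ j, j ≠ i ∧ pr j w ≠ 0 := by
      by_contra hcon
      push Not at hcon
      apply hw i
      rw [← R.sum w, Finset.sum_eq_single i (fun l _ hl => hcon l hl) (fun h => absurd (Finset.mem_univ i) h)]
      exact R.mem i w
    obtain ⟨xj, hxj⟩ := c2 j hj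
    obtain ⟨δ, hδ0, hδ1⟩ := hδ hmm
    obtain ⟨k, hk⟩ : ∃ k, k ∉ ({i, j} : Finset κ) := by
      by_contra hcon
      push Not at hcon
      have h1 : Finset.univ ⊆ ({i, j} : Finset κ) := fun x _ => hcon x
      have h2 := Finset.card_le_card h1
      have h3 : ({i, j} : Finset κ).card ≤ 2 := Finset.card_le_two
      rw [Finset.card_univ] at h2
      have := hκ hmm
      omega
    simp only [Finset.mem_insert, Finset.mem_singleton, not_or] at hk
    -- vectors y
    have hy : ∀ i, pr i w ≠ 0 → (∃ x, ψ (pr i x) ≠ 0) → ∃ y ∈ D i, ψ y = 1 ∧ ∃ θ : Dual F V, (∀ x, θ (pr i x) = θ x) ∧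
        θ w = 1 ∧ θ y = 0 := by
      intro i hi ⟨x, hx⟩
      refine ⟨(ψ (pr i x))⁻¹ • pr i x, Submodule.smul_mem _ _ (R.mem i x), by
        rw [map_smul, smul_eq_mul, inv_mul_cancel₀ hx], ?_⟩
      have h1 : pr i w ∉ Submodule.span F {(ψ (pr i x))⁻¹ • pr i x} := by
        intro h1
        obtain ⟨c, hc⟩ := Submodule.mem_span_singleton.1 h1
        have h2 := c3 i
        rw [← hc, map_smul, map_smul, smul_eq_mul, smul_eq_mul, inv_mul_cancel₀ hx, mul_one] at h2
        apply hi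
        rw [← hc, h2, zero_smul]
      obtain ⟨θ, h2, h3, h4⟩ := R.exists_fun (R.mem i w) h1
        ((Submodule.span_singleton_le_iff_mem _ _).2 (Submodule.smul_mem _ _ (R.mem i x)))
      exact ⟨θ, h2, by rw [← h2, h3], h4 _ (Submodule.mem_span_singleton_self _)⟩
    obtain ⟨yi, hyi, hψi, θi, hθi, hθiw, hθiy⟩ := hy i hi ⟨xi, hxi⟩
    obtain ⟨yj, hyj, hψj, θj, hθj, hθjw, hθjy⟩ := hy j hj ⟨xj, hxj⟩
    obtain ⟨β, hβ, hβ0, hβw⟩ := R.exists_kill (hm' k) (R.mem k w)
    obtain ⟨yk, hyk, hβy⟩ : ∃ y ∈ D k, β y = 1 := by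
      obtain ⟨x, hx⟩ : ∃ x, β x ≠ 0 := by
        by_contra hcon
        push Not at hcon
        exact hβ0 (LinearMap.ext hcon)
      refine ⟨(β x)⁻¹ • pr k x, Submodule.smul_mem _ _ (R.mem k x), ?_⟩
      rw [map_smul, hβ, smul_eq_mul, inv_mul_cancel₀ hx]
    have hψj' : (ψ ∘ₗ pr j) yj = 1 := by show ψ (pr j yj) = 1; rw [R.self j yj hyj, hψj]
    obtain ⟨η, hη, hηx⟩ := hH j k yj yk (ψ ∘ₗ pr j) β δ (Ne.symm hk.2) hδ0 hyj hyk (R.dual_ext j ψ) hβ hψj' hβy
    obtain ⟨τi, hτi, hτix⟩ := (hT i yi θi hyi hθi hθiy).2 1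
    obtain ⟨τj, hτj, hτjx⟩ := (hT j yj θj hyj hθj hθjy).2 (-1)
    -- values
    have v1 : (ψ ∘ₗ pr j) w = 0 := c3 j
    have v2 : β w = 0 := by rw [← hβ]; exact hβw
    have v3 : θi yj = 0 := R.dual_zero (Ne.symm hji) hθi hyj
    have v4 : θj yi = 0 := R.dual_zero hji hθj hyi
    have v5 : (ψ ∘ₗ pr j) yi = 0 := by
      show ψ (pr j yi) = 0
      rw [R.zero j i yi hji hyi, map_zero]
    have v6 : β yi = 0 := R.dual_zero hk.1 hβ hyi
    have v7 : β yj = 0 := R.dual_zero hk.2 hβ hyj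
    have hM' : τi * τj * η ∈ M := mul_mem (mul_mem hτi hτj) hη
    have hgw : (τi * τj * η) w = w + (yi - yj) := by
      rw [LinearEquiv.mul_apply, LinearEquiv.mul_apply, hηx, v1, v2]
      simp only [mul_zero, zero_smul, add_zero]
      rw [hτjx, hτix, map_add, map_smul, hθiw, hθjw, v3]
      simp only [smul_zero, add_zero, mul_one, one_smul, neg_one_smul]
      abel
    have hgi : (τi * τj * η) (w - yi + δ⁻¹ • yj) = w := by
      have g1 : η (w - yi + δ⁻¹ • yj) = w - yi + yj := by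
        have a1 : β (w - yi + δ⁻¹ • yj) = 0 := by
          rw [map_add, map_sub, map_smul, v2, v6, v7, smul_zero]; ring
        have a2 : (ψ ∘ₗ pr j) (w - yi + δ⁻¹ • yj) = δ⁻¹ := by
          rw [map_add, map_sub, map_smul, v1, v5, hψj', smul_eq_mul]; ring
        have a3 : (δ - 1) * δ⁻¹ = 1 - δ⁻¹ := by
          rw [sub_mul, mul_inv_cancel₀ hδ0, one_mul]
        rw [hηx, a1, a2, a3]
        module
      have g2 : τj (w - yi + yj) = w - yi := by
        rw [hτjx, map_add, map_sub, hθjw, v4, hθjy]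
        module
      have g3 : τi (w - yi) = w := by
        rw [hτix, map_sub, hθiw, hθiy]
        module
      rw [LinearEquiv.mul_apply, LinearEquiv.mul_apply, g1, g2, g3]
    have hgi' : (τi * τj * η)⁻¹ w = w - yi + δ⁻¹ • yj := by
      conv_lhs => rw [← hgi]
      rw [← LinearEquiv.mul_apply, inv_mul_cancel]; rfl
    have h5 := h.map' hM'
    rw [hgw] at h5
    have h6 := h.comm h5 (by rw [map_add, map_sub, h.1, hψi, hψj]; ring) (by
      show ψ ((τi * τj * η)⁻¹ w) ≠ 0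
      rw [hgi', map_add, map_sub, map_smul, h.1, hψi, hψj]
      intro h7
      apply hδ1
      have h8 : δ⁻¹ = 1 := by
        rw [smul_eq_mul] at h7
        linear_combination h7
      exact inv_eq_one.1 h8)
    have h7 := h6.sub h
    rw [add_sub_cancel_left] at h7
    refine R.case3 hT hP hm' (i := i) h7 ?_ ?_
    · intro h8
      have h9 : yj ∈ D i := by
        have := Submodule.sub_mem _ hyi h8
        rwa [sub_sub_cancel] at this
      have h10 := R.zero j i yj hji h9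
      rw [R.self j yj hyj] at h10
      rw [h10, map_zero] at hψj
      exact zero_ne_one hψj
    · rw [map_sub, R.self i yi hyi, R.zero i j yj (Ne.symm hji) hyj, sub_zero, hψi]
      exact one_ne_zero
  · -- m ≥ 3
    obtain ⟨φ, h2, h3, h4, h5⟩ := R.exists_kill2 (by rw [hm]; exact hm3) (R.mem i xi) (R.mem i w)
    have h6 := hT i (pr i xi) φ (R.mem i xi) h2 h4
    exact R.stepB hT hP hm' h2 h3 (hw i) (h6.comm h (by rw [← h2]; exact h5) hxi)

/-- the conclusion -/
theorem main (hT : HT D pr M) (hP : HP D M) (hH : HH D pr M) {m : ℕ} (hm2 : 2 ≤ m)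
    (hm : ∀ i, finrank F (D i) = m) (hδ : m = 2 → ∃ δ : F, δ ≠ 0 ∧ δ ≠ 1) (hκ : m = 2 → 3 ≤ Fintype.card κ)
    (hex : ∃ g ∈ M, ¬ ∃ σ : Equiv.Perm κ, ∀ i, (D i).map ((g : V ≃ₗ[F] V) : V →ₗ[F] V) = D (σ i)) :
    ∀ (u : V) (φ : Dual F V) (h : φ u = 0), tr u φ h ∈ M := by
  obtain ⟨g, hg, hgD⟩ := hex
  have hm' : ∀ i, 2 ≤ finrank F (D i) := fun i => by rw [hm]; exact hm2
  obtain ⟨i, v, hv, hgv⟩ : ∃ i, ∃ v ∈ D i, ∀ j, g v ∉ D j := by
    by_contra hcon
    push Not at hcon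
    apply hgD
    -- a nonzero vector in each block
    have h1 : ∀ i, ∃ v ∈ D i, v ≠ 0 := by
      intro i
      obtain ⟨v, hv, hv0, -⟩ := exists_ker (hm' i) (0 : Dual F V)
      exact ⟨v, hv, hv0⟩
    choose x hx hx0 using h1
    choose s hs using fun i => hcon i (x i) (hx i)
    have hg0 : ∀ v, v ≠ 0 → g v ≠ 0 := fun v hv h => hv ((LinearEquiv.map_eq_zero_iff g).1 h)
    have h2 : ∀ i, ∀ v ∈ D i, g v ∈ D (s i) := by
      intro i v hv
      by_cases hv0 : v = 0
      · rw [hv0, map_zero]; exact Submodule.zero_mem _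
      obtain ⟨j, hj⟩ := hcon i v hv
      obtain ⟨l, hl⟩ := hcon i (v + x i) (Submodule.add_mem _ hv (hx i))
      by_contra hne
      have hjs : j ≠ s i := by rintro rfl; exact hne hj
      rw [map_add] at hl
      have e1 : l = j := by
        by_contra hlj
        have := R.zero j l _ (Ne.symm hlj) hl
        rw [map_add, R.self j _ hj, R.zero j (s i) _ hjs (hs i), add_zero] at this
        exact hg0 v hv0 this
      have e2 : l = s i := by
        by_contra hls
        have := R.zero (s i) l _ (Ne.symm hls) hl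
        rw [map_add, R.self (s i) _ (hs i), R.zero (s i) j _ (Ne.symm hjs) hj, zero_add] at this
        exact hg0 _ (hx0 i) this
      exact hjs (e1.symm.trans e2)
    have h3 : ∀ i, (D i).map (g : V →ₗ[F] V) = D (s i) := by
      intro i
      apply Submodule.eq_of_le_of_finrank_eq
      · rintro _ ⟨v, hv, rfl⟩; exact h2 i v hv
      · rw [hm, ← hm i]
        exact LinearEquiv.finrank_map_eq g (D i)
    have hinj : Function.Injective s := by
      intro i j hij
      by_contra hne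
      have h4 : (D i).map (g : V →ₗ[F] V) = (D j).map (g : V →ₗ[F] V) := by rw [h3, h3, hij]
      have h5 : D i = D j := Submodule.map_injective_of_injective g.injective h4
      have h6 := R.zero j i (x i) (Ne.symm hne) (hx i)
      rw [R.self j (x i) (h5 ▸ hx i)] at h6
      exact hx0 i h6
    exact ⟨Equiv.ofBijective s (Finite.injective_iff_bijective.1 hinj), h3⟩
  have hv0 : v ≠ 0 := by
    rintro rfl
    apply hgv i
    rw [map_zero]; exact Submodule.zero_mem _
  obtain ⟨φ, h1, h2, h3⟩ := R.exists_kill (hm' i) hv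
  have h4 := (hT i v φ hv h1 h3).map' hg
  refine R.main_step hT hP hH hm2 hm hδ hκ h4 (fun h => hv0 ((LinearEquiv.map_eq_zero_iff g).1 h)) ?_ hgv
  intro h5
  apply h2
  apply LinearMap.ext
  intro x
  have := congrArg (fun f : Dual F V => f (g x)) h5
  have e : g⁻¹ (g x) = x := by rw [← LinearEquiv.mul_apply, inv_mul_cancel]; rfl
  simpa [e] using this

end Dec

end Cfsg.Agent.Lib.SLBlockH94
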