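import Mathlib
import Cfsg.Agent.Lib.SLMax
import Cfsg.Agent.Lib.SLUn
import Cfsg.Agent.Lib.SLBlockH94

set_option autoImplicit false
set_option linter.unusedSectionVars false
set_option linter.unusedSimpArgs false
set_option linter.unusedVariables false

/-!
Vector spaces over a field extension of prime degree: lines over the big field seen over the small one.
-/

namespace Cfsg.Agent.Lib.ExtFldH94

open Module Cfsg.Agent.Lib.SLMax Cfsg.Agent.Lib.SLUn Cfsg.Agent.Lib.SLBlockH94

variable {F V : Type*} (K : Type*) [Field F] [Field K] [Algebra F K] [AddCommGroup V] [Module F V] [Module K V]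
  [IsScalarTower F K V]

/-- the line through a vector over the big field, as a subspace over the small field -/
def Ln (v : V) : Submodule F V := (Submodule.span K {v}).restrictScalars F

variable {K}

theorem mem_Ln {v x : V} : x ∈ (Ln K v : Submodule F V) ↔ ∃ a : K, x = a • v := by
  rw [Ln, Submodule.restrictScalars_mem, Submodule.mem_span_singleton]
  exact ⟨fun ⟨a, h⟩ => ⟨a, h.symm⟩, fun ⟨a, h⟩ => ⟨a, h.symm⟩⟩

theorem smul_mem_Ln (v : V) (a : K) : a • v ∈ (Ln K v : Submodule F V) := mem_Ln.2 ⟨a, rfl⟩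

theorem self_mem_Ln (v : V) : v ∈ (Ln K v : Submodule F V) := mem_Ln.2 ⟨1, (one_smul _ _).symm⟩

theorem Ln_smul {v x : V} (a : K) (hx : x ∈ (Ln K v : Submodule F V)) : a • x ∈ (Ln K v : Submodule F V) := by
  obtain ⟨b, rfl⟩ := mem_Ln.1 hx
  exact mem_Ln.2 ⟨a * b, smul_smul _ _ _⟩

theorem Ln_eq {v x : V} (hx : x ∈ (Ln K v : Submodule F V)) (hx0 : x ≠ 0) : (Ln K x : Submodule F V) = Ln K v := by
  obtain ⟨b, rfl⟩ := mem_Ln.1 hx
  have hb : b ≠ 0 := by rintro rfl; exact hx0 (zero_smul _ _)
  apply le_antisymm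
  · intro y hy
    obtain ⟨c, rfl⟩ := mem_Ln.1 hy
    exact Ln_smul c hx
  · intro y hy
    obtain ⟨c, rfl⟩ := mem_Ln.1 hy
    exact mem_Ln.2 ⟨c * b⁻¹, by rw [smul_smul, mul_assoc, inv_mul_cancel₀ hb, mul_one]⟩

theorem finrank_Ln {v : V} (hv : v ≠ 0) : finrank F (Ln K v : Submodule F V) = finrank F K := by
  have e : K ≃ₗ[F] (Ln K v : Submodule F V) := LinearEquiv.ofBijective
    (((LinearMap.toSpanSingleton K V v).restrictScalars F).codRestrict (Ln K v) (fun a => by
      exact smul_mem_Ln v a)) ⟨by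
        intro a b h
        have h1 := congrArg Subtype.val h
        have h2 : a • v = b • v := h1
        exact smul_left_injective K hv h2, by
        rintro ⟨x, hx⟩
        obtain ⟨a, rfl⟩ := mem_Ln.1 hx
        exact ⟨a, rfl⟩⟩
  exact e.finrank_eq.symm

/-- separation over the big field -/
theorem exists_dual {W : Submodule K V} {x : V} (hx : x ∉ W) : ∃ φ : V →ₗ[K] K, φ x = 1 ∧ ∀ w ∈ W, φ w = 0 := by
  obtain ⟨f, h1, h2⟩ := Submodule.exists_le_ker_of_notMem hx
  refine ⟨(f x)⁻¹ • f, ?_, fun w hw => ?_⟩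
  · rw [LinearMap.smul_apply, smul_eq_mul, inv_mul_cancel₀ h1]
  · rw [LinearMap.smul_apply, show f w = 0 from h2 hw, smul_zero]

theorem exists_dual1 {v x : V} (hx : x ∉ (Ln K v : Submodule F V)) : ∃ φ : V →ₗ[K] K, φ x = 1 ∧ φ v = 0 := by
  obtain ⟨φ, h1, h2⟩ := exists_dual (K := K) (W := Submodule.span K {v}) (x := x) hx
  exact ⟨φ, h1, h2 v (Submodule.mem_span_singleton_self v)⟩

theorem exists_out [FiniteDimensional K V] {W : Submodule K V} {n : ℕ} (hW : finrank K W < n)
    (hn : n ≤ finrank K V) : ∃ x, x ∉ W := by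
  by_contra hcon
  push Not at hcon
  have : W = ⊤ := by rw [eq_top_iff]; intro x _; exact hcon x
  rw [this, finrank_top] at hW
  omega

theorem finrank_pair_le [FiniteDimensional K V] (v w : V) : finrank K (Submodule.span K {v, w}) ≤ 2 := by
  classical
  have := finrank_span_finset_le_card (R := K) ({v, w} : Finset V)
  rw [Finset.coe_pair] at this
  exact this.trans Finset.card_le_two

theorem exists_out2 [FiniteDimensional K V] (hk : 3 ≤ finrank K V) (v w : V) : ∃ x, x ∉ Submodule.span K {v, w} :=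
  exists_out (K := K) (n := 3) (by have := finrank_pair_le (K := K) v w; omega) hk

theorem exists_out1 [FiniteDimensional K V] (hk : 2 ≤ finrank K V) (v : V) : ∃ x, x ∉ (Ln K v : Submodule F V) := by
  have h1 : finrank K (Submodule.span K {v}) ≤ 1 := by
    have := finrank_span_le_card (R := K) ({v} : Set V)
    simpa using this
  exact exists_out (K := K) (W := Submodule.span K {v}) (n := 2) (by omega) hk

/-- maps preserving all lines are scalars -/
theorem scalar_of_lines [FiniteDimensional K V] (hk : 2 ≤ finrank K V) (A : V →ₗ[F] V)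
    (hA : ∀ y, A y ∈ (Ln K y : Submodule F V)) : ∃ b : K, ∀ y, A y = b • y := by
  obtain ⟨v₀, hv₀⟩ : ∃ v₀ : V, v₀ ≠ 0 := by
    obtain ⟨x, hx⟩ := exists_out1 (F := F) (K := K) hk (0 : V)
    exact ⟨x, fun h => hx (h ▸ self_mem_Ln _)⟩
  obtain ⟨b, hb⟩ := mem_Ln.1 (hA v₀)
  have h1 : ∀ y, y ∉ (Ln K v₀ : Submodule F V) → A y = b • y := by
    intro y hy
    obtain ⟨c, hc⟩ := mem_Ln.1 (hA y)
    obtain ⟨d, hd⟩ := mem_Ln.1 (hA (v₀ + y))
    rw [map_add, hb, hc, smul_add] at hd
    have h2 : (b - d) • v₀ = (d - c) • y := by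
      rw [sub_smul, sub_smul, sub_eq_sub_iff_add_eq_add, hd, add_comm]
    have h3 : d = c := by
      by_contra hne
      apply hy
      refine mem_Ln.2 ⟨(d - c)⁻¹ * (b - d), ?_⟩
      rw [mul_smul, h2, smul_smul, inv_mul_cancel₀ (sub_ne_zero.2 hne), one_smul]
    rw [h3, sub_self, zero_smul] at h2
    have h4 : b = c := by
      rcases smul_eq_zero.1 h2 with h | h
      · exact sub_eq_zero.1 h
      · exact absurd h hv₀
    rw [hc, h4]
  refine ⟨b, fun y => ?_⟩
  by_cases hy : y ∈ (Ln K v₀ : Submodule F V)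
  · obtain ⟨z, hz⟩ := exists_out1 (F := F) (K := K) hk v₀
    have h2 := h1 (y + z) (fun h => hz (by
      have := Submodule.sub_mem _ h hy
      rwa [add_sub_cancel_left] at this))
    rw [map_add, h1 z hz, smul_add] at h2
    exact add_right_cancel h2
  · exact h1 y hy

/-- an element outside the normaliser moves some line -/
theorem exists_not_line [FiniteDimensional K V] (hk : 2 ≤ finrank K V) {g : V ≃ₗ[F] V}
    (hg : ¬ ∀ a : K, ∃ b : K, ∀ x, g (a • x) = b • g x) : ∃ (v : V) (a : K), g (a • v) ∉ (Ln K (g v) : Submodule F V) := by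
  by_contra hcon
  push Not at hcon
  apply hg
  intro a
  obtain ⟨A, hA⟩ : ∃ A : V →ₗ[F] V, ∀ y, A y = g (a • g.symm y) :=
    ⟨(g : V →ₗ[F] V) ∘ₗ (LinearMap.lsmul K V a).restrictScalars F ∘ₗ (g.symm : V →ₗ[F] V), fun y => rfl⟩
  obtain ⟨b, hb⟩ := scalar_of_lines (K := K) hk A (fun y => by
    have := hcon (g.symm y) a
    rw [LinearEquiv.apply_symm_apply] at this
    rw [hA]; exact this)
  refine ⟨b, fun x => ?_⟩
  have := hb (g x)
  rwa [hA, LinearEquiv.symm_apply_apply] at this

/-- stability of a subspace of `K` under one element outside `F` -/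
theorem stable (hr : (finrank F K).Prime) {κ : K} (hκ : κ ∉ Set.range (algebraMap F K)) {C : Submodule F K}
    (hC : ∀ c ∈ C, κ * c ∈ C) (a : K) {c : K} (hc : c ∈ C) : a * c ∈ C := by
  let S : Subalgebra F K :=
    { carrier := {a | ∀ c ∈ C, a * c ∈ C}
      mul_mem' := fun {a b} ha hb c hc => by rw [mul_assoc]; exact ha _ (hb c hc)
      add_mem' := fun {a b} ha hb c hc => by rw [add_mul]; exact C.add_mem (ha c hc) (hb c hc)
      algebraMap_mem' := fun r c hc => by rw [← Algebra.smul_def]; exact C.smul_mem r hc }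
  have hS : S = ⊤ := by
    rcases (Subalgebra.isSimpleOrder_of_finrank_prime F K hr).eq_bot_or_eq_top S with h | h
    · exfalso
      have h1 : κ ∈ S := hC
      rw [h, Algebra.mem_bot] at h1
      exact hκ h1
    · exact h
  have : a ∈ S := by rw [hS]; trivial
  exact this c hc

theorem exists_not_F (hr : (finrank F K).Prime) : ∃ κ : K, κ ∉ Set.range (algebraMap F K) := by
  by_contra hcon
  push Not at hcon
  have h1 : finrank F K ≤ 1 := by
    refine finrank_le_one (1 : K) (fun w => ?_)
    obtain ⟨c, hc⟩ := hcon w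
    exact ⟨c, by rw [← hc, Algebra.smul_def, mul_one]⟩
  have := hr.two_le
  omega

/-- transvections over the big field -/
def kt (v : V) (φ : V →ₗ[K] K) (h : φ v = 0) : V ≃ₗ[F] V := (tr v φ h : V ≃ₗ[K] V).restrictScalars F

theorem kt_apply (v : V) (φ : V →ₗ[K] K) (h : φ v = 0) (x : V) : (kt v φ h : V ≃ₗ[F] V) x = x + φ x • v :=
  tr_apply v φ h x

/-- big field functionals from small field functionals -/
theorem exists_lift [FiniteDimensional F K] {b : Dual F K} (hb : b ≠ 0) (α : Dual F V) :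
    ∃ ψ : V →ₗ[K] K, ∀ x, α x = b (ψ x) := by
  -- the trace form of b
  have hinj : ∀ c : K, (∀ a, b (a * c) = 0) → c = 0 := by
    intro c hc
    by_contra hc0
    apply hb
    apply LinearMap.ext
    intro a
    have := hc (a * c⁻¹)
    rw [mul_assoc, inv_mul_cancel₀ hc0, mul_one] at this
    exact this
  obtain ⟨T, hT⟩ : ∃ T : K →ₗ[F] Dual F K, ∀ c a, T c a = b (a * c) :=
    ⟨LinearMap.mk₂ F (fun c a => b (a * c)) (fun c c' a => by rw [mul_add, map_add])
      (fun s c a => by rw [mul_smul_comm, map_smul]) (fun c a a' => by rw [add_mul, map_add])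
      (fun s c a => by rw [smul_mul_assoc, map_smul]), fun c a => rfl⟩
  have hTi : Function.Injective T := by
    rw [injective_iff_map_eq_zero]
    intro c hc
    exact hinj c (fun a => by rw [← hT, hc]; rfl)
  have hTs : Function.Surjective T :=
    (LinearMap.injective_iff_surjective_of_finrank_eq_finrank (Subspace.dual_finrank_eq (K := F) (V := K)).symm).1 hTi
  have h1 : ∀ x : V, ∃ c : K, ∀ a : K, α (a • x) = b (a * c) := by
    intro x
    obtain ⟨c, hc⟩ := hTs (α ∘ₗ ((LinearMap.toSpanSingleton K V x).restrictScalars F))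
    refine ⟨c, fun a => ?_⟩
    rw [← hT, hc]; rfl
  choose f hf using h1
  have huniq : ∀ c c' : K, (∀ a : K, b (a * c) = b (a * c')) → c = c' := by
    intro c c' h
    rw [← sub_eq_zero]
    apply hinj
    intro a
    rw [mul_sub, map_sub, h, sub_self]
  refine ⟨⟨⟨f, fun x y => huniq _ _ fun a => ?_⟩, fun c x => huniq _ _ fun a => ?_⟩, fun x => ?_⟩
  · rw [← hf, smul_add, map_add, hf, hf, mul_add, map_add]
  · rw [← hf, smul_smul, hf, RingHom.id_apply, smul_eq_mul, mul_assoc]
  · have := hf x 1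
    rw [one_smul, one_mul] at this
    exact this

end Cfsg.Agent.Lib.ExtFldH94
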