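import Mathlib
import Cfsg.Agent.Lib.ExtFldH94

set_option autoImplicit false
set_option linter.unusedSectionVars false
set_option linter.unusedSimpArgs false
set_option linter.unusedVariables false

/-!
Overgroups of extension field subgroups in the special linear group.
-/

namespace Cfsg.Agent.Lib.ExtSLH94

open Module Cfsg.Agent.Lib.SLMax Cfsg.Agent.Lib.SLUn Cfsg.Agent.Lib.SLBlockH94 Cfsg.Agent.Lib.ExtFldH94

variable {F K V : Type*} [Field F] [Field K] [Algebra F K] [AddCommGroup V] [Module F V] [Module K V]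
  [IsScalarTower F K V] [FiniteDimensional F K] [FiniteDimensional K V] [FiniteDimensional F V]
  {M : Subgroup (V ≃ₗ[F] V)}

/-- homologies -/
theorem exists_homology {F V : Type*} [Field F] [AddCommGroup V] [Module F V] [FiniteDimensional F V] {y : V}
    {α : Dual F V} (h : α y = 1) {δ : F} (hδ : δ ≠ 0) :
    ∃ g : V ≃ₗ[F] V, (∀ x, g x = x + ((δ - 1) * α x) • y) ∧
      LinearMap.det ((g : V ≃ₗ[F] V) : V →ₗ[F] V) = δ := by
  have h1 : ∀ a b : F, a * b = 1 → (LinearMap.transvection ((a - 1) • α) y) ∘ₗ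
      (LinearMap.transvection ((b - 1) • α) y) = LinearMap.id := by
    intro a b hab
    apply LinearMap.ext
    intro x
    rw [LinearMap.comp_apply, LinearMap.transvection.apply, LinearMap.transvection.apply,
      LinearMap.smul_apply, LinearMap.smul_apply, map_add, map_smul, h, LinearMap.id_apply]
    simp only [smul_eq_mul]
    match_scalars
    · ring
    · linear_combination (α x) * hab
  refine ⟨LinearEquiv.ofLinear (LinearMap.transvection ((δ - 1) • α) y)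
    (LinearMap.transvection ((δ⁻¹ - 1) • α) y) (h1 _ _ (mul_inv_cancel₀ hδ)) (h1 _ _ (inv_mul_cancel₀ hδ)), ?_, ?_⟩
  · intro x
    rw [LinearEquiv.ofLinear_apply, LinearMap.transvection.apply, LinearMap.smul_apply, smul_eq_mul]
  · rw [LinearEquiv.ofLinear_toLinearMap, LinearMap.transvection.det, LinearMap.smul_apply, h]
    simp

variable (K) in
/-- the group contains the special linear group over the big field, and more -/
def HL (M : Subgroup (V ≃ₗ[F] V)) : Prop := ∀ g : V ≃ₗ[K] V,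
  Algebra.norm F (LinearMap.det (g : V →ₗ[K] V)) = 1 → g.restrictScalars F ∈ M

theorem kt_mem (h : HL K M) (v : V) (φ : V →ₗ[K] K) (hv : φ v = 0) : (kt v φ hv : V ≃ₗ[F] V) ∈ M := by
  apply h
  rw [tr_det, map_one]

variable (K) in
/-- intersection dimensions of pairs of conjugates of lines -/
def Pr (M : Subgroup (V ≃ₗ[F] V)) (w : ℕ) : Prop := ∃ g ∈ M, ∃ v v' : V, v ≠ 0 ∧ v' ≠ 0 ∧
  finrank F ((Ln K v : Submodule F V) ⊓ (Ln K v').map (g : V →ₗ[F] V) : Submodule F V) = w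

theorem map_map' (g h : V ≃ₗ[F] V) (U : Submodule F V) :
    (U.map (g : V →ₗ[F] V)).map (h : V →ₗ[F] V) = U.map ((h * g : V ≃ₗ[F] V) : V →ₗ[F] V) := by
  rw [← Submodule.map_comp]; rfl

theorem Pr_of {g h : V ≃ₗ[F] V} (hg : g ∈ M) (hh : h ∈ M) {v v' : V} (hv : v ≠ 0) (hv' : v' ≠ 0) :
    Pr K M (finrank F ((Ln K v).map (g : V →ₗ[F] V) ⊓ (Ln K v').map (h : V →ₗ[F] V) : Submodule F V)) := by
  refine ⟨g⁻¹ * h, mul_mem (inv_mem hg) hh, v, v', hv, hv', ?_⟩
  have h1 : (Ln K v : Submodule F V) = ((Ln K v).map (g : V →ₗ[F] V)).map ((g⁻¹ : V ≃ₗ[F] V) : V →ₗ[F] V) := by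
    rw [map_map', inv_mul_cancel]
    exact (Submodule.map_id _).symm
  have h2 : (Ln K v').map ((g⁻¹ * h : V ≃ₗ[F] V) : V →ₗ[F] V) =
      ((Ln K v').map (h : V →ₗ[F] V)).map ((g⁻¹ : V ≃ₗ[F] V) : V →ₗ[F] V) := (map_map' _ _ _).symm
  rw [h2]
  conv_lhs => rw [h1]
  rw [← Submodule.map_inf _ (g⁻¹ : V ≃ₗ[F] V).injective]
  exact LinearEquiv.finrank_map_eq (g⁻¹ : V ≃ₗ[F] V) _

theorem Pr_start (hk : 2 ≤ finrank K V) (hex : ∃ g ∈ M, ¬ ∀ a : K, ∃ b : K, ∀ x, g (a • x) = b • g x) :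
    ∃ w, 0 < w ∧ w < finrank F K ∧ Pr K M w := by
  obtain ⟨g, hg, hgN⟩ := hex
  obtain ⟨v, a, hva⟩ := exists_not_line hk hgN
  have hv : v ≠ 0 := by
    rintro rfl
    apply hva
    rw [smul_zero, map_zero]
    exact Submodule.zero_mem _
  have hgv : g v ≠ 0 := fun h => hv ((LinearEquiv.map_eq_zero_iff g).1 h)
  have h1 := Pr_of (K := K) (one_mem M) hg hgv hv
  have h0 : (Ln K (g v)).map ((1 : V ≃ₗ[F] V) : V →ₗ[F] V) = (Ln K (g v) : Submodule F V) := Submodule.map_id _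
  rw [h0] at h1
  refine ⟨_, ?_, ?_, h1⟩
  · have h2 : g v ∈ (Ln K (g v) ⊓ (Ln K v).map (g : V →ₗ[F] V) : Submodule F V) :=
      ⟨self_mem_Ln _, ⟨v, self_mem_Ln _, rfl⟩⟩
    apply Nat.pos_of_ne_zero
    intro h3
    rw [Submodule.finrank_eq_zero] at h3
    rw [h3, Submodule.mem_bot] at h2
    exact hgv h2
  · have h2 : finrank F (Ln K (g v) ⊓ (Ln K v).map (g : V →ₗ[F] V) : Submodule F V) ≤
        finrank F ((Ln K v).map (g : V →ₗ[F] V)) := Submodule.finrank_mono inf_le_right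
    have h4 : finrank F ((Ln K v).map (g : V →ₗ[F] V)) = finrank F K := by
      rw [← finrank_Ln (F := F) (K := K) hv]
      exact LinearEquiv.finrank_map_eq g _
    rw [h4] at h2
    refine lt_of_le_of_ne h2 fun h3 => ?_
    have h5 : (Ln K (g v) ⊓ (Ln K v).map (g : V →ₗ[F] V) : Submodule F V) = (Ln K v).map (g : V →ₗ[F] V) :=
      Submodule.eq_of_le_of_finrank_eq inf_le_right (by rw [h3, h4])
    apply hva
    have h6 : g (a • v) ∈ (Ln K v).map (g : V →ₗ[F] V) := ⟨_, smul_mem_Ln v a, rfl⟩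
    rw [← h5] at h6
    exact h6.1

/-- the intersection dimension can be increased -/
theorem Pr_step (hr : (finrank F K).Prime) (hHL : HL K M) {w : ℕ} (hw0 : 0 < w) (hw : w + 1 < finrank F K)
    (h : Pr K M w) : ∃ w', w < w' ∧ w' < finrank F K ∧ Pr K M w' := by
  obtain ⟨g, hg, v, v', hv, hv', hfr⟩ := h
  obtain ⟨U, hU⟩ : ∃ U : Submodule F V, U = Ln K v := ⟨_, rfl⟩
  obtain ⟨U', hU'⟩ : ∃ U' : Submodule F V, U' = (Ln K v').map (g : V →ₗ[F] V) := ⟨_, rfl⟩
  rw [← hU, ← hU'] at hfr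
  have hU'r : finrank F U' = finrank F K := by
    rw [hU', ← finrank_Ln (F := F) (K := K) hv']
    exact LinearEquiv.finrank_map_eq g _
  obtain ⟨u₁, hu₁, hu₁W⟩ : ∃ x ∈ U', x ∉ U ⊓ U' := Dec.exists_out (by omega)
  have hu₁U : u₁ ∉ U := fun h => hu₁W ⟨h, hu₁⟩
  obtain ⟨u₂, hu₂, hu₂W⟩ : ∃ x ∈ U', x ∉ (U ⊓ U') ⊔ Submodule.span F {u₁} := by
    apply Dec.exists_out
    have h1 := Submodule.finrank_add_le_finrank_add_finrank (U ⊓ U') (Submodule.span F {u₁})
    have h2 : finrank F (Submodule.span F {u₁}) ≤ 1 := by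
      have := finrank_span_le_card (R := F) ({u₁} : Set V)
      simpa using this
    omega
  -- the functional
  obtain ⟨φ, hφv, hφ1, hφ2⟩ : ∃ φ : V →ₗ[K] K, φ v = 0 ∧ φ u₁ = 1 ∧ φ u₂ ∉ Set.range (algebraMap F K) := by
    obtain ⟨φ₁, h1, h2⟩ := exists_dual1 (F := F) (K := K) (v := v) (x := u₁) (by rwa [← hU])
    by_cases hu2 : u₂ ∈ Submodule.span K {v, u₁}
    · refine ⟨φ₁, h2, h1, ?_⟩
      obtain ⟨a, b, hab⟩ := Submodule.mem_span_pair.1 hu2
      rintro ⟨s, hs⟩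
      have hb : b = algebraMap F K s := by
        rw [hs, ← hab, map_add, map_smul, map_smul, h1, h2]; simp
      apply hu₂W
      have h3 : a • v ∈ U ⊓ U' := by
        refine ⟨by rw [hU]; exact smul_mem_Ln v a, ?_⟩
        have h4 : a • v = u₂ - s • u₁ := by
          rw [← hab, hb, algebraMap_smul, add_sub_cancel_right]
        rw [h4]
        exact Submodule.sub_mem _ hu₂ (Submodule.smul_mem _ _ hu₁)
      rw [← hab, hb, algebraMap_smul]
      exact Submodule.add_mem_sup h3 (Submodule.smul_mem _ _ (Submodule.mem_span_singleton_self _))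
    · obtain ⟨φ₂, h3, h4⟩ := exists_dual hu2
      obtain ⟨κ, hκ⟩ := exists_not_F (F := F) hr
      refine ⟨φ₁ + (κ - φ₁ u₂) • φ₂, ?_, ?_, ?_⟩
      · rw [LinearMap.add_apply, LinearMap.smul_apply, h2, h4 v (Submodule.subset_span (by simp)), smul_zero,
          add_zero]
      · rw [LinearMap.add_apply, LinearMap.smul_apply, h1, h4 u₁ (Submodule.subset_span (by simp)), smul_zero,
          add_zero]
      · rw [LinearMap.add_apply, LinearMap.smul_apply, h3, smul_eq_mul, mul_one, add_sub_cancel]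
        exact hκ
  by_contra hcon
  push Not at hcon
  -- the subspace of scalars
  obtain ⟨C, hC⟩ : ∃ C : Submodule F K, ∀ a, a ∈ C ↔ a • v ∈ U' :=
    ⟨U'.comap ((LinearMap.toSpanSingleton K V v).restrictScalars F), fun a => Iff.rfl⟩
  have hstab : ∀ c ∈ C, φ u₂ * c ∈ C := by
    intro c hc
    have hcv : φ (c • v) = 0 := by rw [map_smul, hφv, smul_zero]
    have hx := kt_mem hHL (c • v) φ hcv
    have hxW : ∀ y ∈ U ⊓ U', (kt (c • v) φ hcv : V ≃ₗ[F] V) y = y := by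
      intro y hy
      rw [kt_apply]
      have h1 := hy.1
      rw [hU] at h1
      obtain ⟨d, rfl⟩ := mem_Ln.1 h1
      rw [map_smul, hφv, smul_zero, zero_smul, add_zero]
    have h1 := Pr_of (K := K) hg (mul_mem hx hg) hv' hv'
    rw [← map_map', ← hU'] at h1
    obtain ⟨I, hI⟩ : ∃ I : Submodule F V, I = U' ⊓ U'.map ((kt (c • v) φ hcv : V ≃ₗ[F] V) : V →ₗ[F] V) :=
      ⟨_, rfl⟩
    rw [← hI] at h1
    have hle : (U ⊓ U') ⊔ Submodule.span F {u₁ + c • v} ≤ I := by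
      rw [hI]
      apply sup_le
      · intro y hy
        exact ⟨hy.2, ⟨y, hy.2, hxW y hy⟩⟩
      · rw [Submodule.span_singleton_le_iff_mem]
        refine ⟨Submodule.add_mem _ hu₁ ((hC c).1 hc), ⟨u₁, hu₁, ?_⟩⟩
        show (kt (c • v) φ hcv : V ≃ₗ[F] V) u₁ = _
        rw [kt_apply, hφ1, one_smul]
    have hlt : w < finrank F I := by
      rw [← hfr]
      apply Submodule.finrank_lt_finrank_of_lt
      refine lt_of_le_of_ne (le_sup_left.trans hle) fun heq => ?_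
      have h2 : u₁ + c • v ∈ I := hle (Submodule.mem_sup_right (Submodule.mem_span_singleton_self _))
      rw [← heq] at h2
      apply hu₁U
      have h3 : c • v ∈ U := by rw [hU]; exact smul_mem_Ln v c
      have := Submodule.sub_mem _ h2.1 h3
      rwa [add_sub_cancel_right] at this
    have hIr : finrank F I ≤ finrank F K := by
      rw [← hU'r, hI]; exact Submodule.finrank_mono inf_le_left
    have hIeq : finrank F I = finrank F K := by
      by_contra hne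
      exact hcon _ hlt (lt_of_le_of_ne hIr hne) h1
    have h2 : I = U' := by
      rw [hI]
      exact Submodule.eq_of_le_of_finrank_eq inf_le_left (by rw [← hI, hIeq, hU'r])
    have h3 : U'.map ((kt (c • v) φ hcv : V ≃ₗ[F] V) : V →ₗ[F] V) = U' := by
      have h4 : U' ≤ U'.map ((kt (c • v) φ hcv : V ≃ₗ[F] V) : V →ₗ[F] V) := by
        rw [← h2]
        conv_lhs => rw [hI]
        rw [← h2] at *
        exact inf_le_right
      exact (Submodule.eq_of_le_of_finrank_eq h4 (LinearEquiv.finrank_map_eq _ _).symm).symm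
    have h5 : (kt (c • v) φ hcv : V ≃ₗ[F] V) u₂ ∈ U' := by
      rw [← h3]; exact ⟨u₂, hu₂, rfl⟩
    rw [kt_apply, smul_smul] at h5
    rw [hC]
    have := Submodule.sub_mem _ h5 hu₂
    rwa [add_sub_cancel_left] at this
  -- a nonzero element of W
  obtain ⟨w₀, hw₀, hw₀0⟩ : ∃ x ∈ U ⊓ U', x ≠ 0 := by
    obtain ⟨x, hx, hx0⟩ := Dec.exists_out (U := U ⊓ U') (W := (⊥ : Submodule F V)) (by
      rw [finrank_bot, hfr]; exact hw0)
    exact ⟨x, hx, fun h => hx0 (by rw [h]; exact Submodule.zero_mem _)⟩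
  have h1 := hw₀.1
  rw [hU] at h1
  obtain ⟨c₀, hc₀⟩ := mem_Ln.1 h1
  have hc₀C : c₀ ∈ C := by rw [hC, ← hc₀]; exact hw₀.2
  have hc₀0 : c₀ ≠ 0 := by rintro rfl; rw [zero_smul] at hc₀; exact hw₀0 hc₀
  have h2 : U ≤ U' := by
    intro y hy
    rw [hU] at hy
    obtain ⟨a, rfl⟩ := mem_Ln.1 hy
    have := stable hr hφ2 hstab (a * c₀⁻¹) hc₀C
    rw [mul_assoc, inv_mul_cancel₀ hc₀0, mul_one, hC] at this
    exact this
  have h3 : finrank F U = finrank F K := by rw [hU]; exact finrank_Ln hv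
  rw [inf_eq_left.2 h2, h3] at hfr
  omega

theorem Pr_adj (hr : (finrank F K).Prime) (hHL : HL K M) (hk : 2 ≤ finrank K V)
    (hex : ∃ g ∈ M, ¬ ∀ a : K, ∃ b : K, ∀ x, g (a • x) = b • g x) : Pr K M (finrank F K - 1) := by
  have key : ∀ n w, 0 < w → w + 1 + n = finrank F K → Pr K M w → Pr K M (finrank F K - 1) := by
    intro n
    induction n using Nat.strong_induction_on with
    | _ n ih =>
      intro w hw0 hwn hw
      rcases Nat.eq_zero_or_pos n with hn | hn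
      · subst hn
        have : finrank F K - 1 = w := by omega
        rw [this]; exact hw
      · obtain ⟨w', h1, h2, h3⟩ := Pr_step hr hHL hw0 (by omega) hw
        exact ih (finrank F K - 1 - w') (by omega) w' (by omega) (by omega) h3
  obtain ⟨w, h1, h2, h3⟩ := Pr_start (K := K) hk hex
  exact key (finrank F K - 1 - w) w h1 (by omega) h3

variable (K) in
/-- data extracted from an adjacent pair -/
structure XD (M : Subgroup (V ≃ₗ[F] V)) (w₀ u₁ c : V) (ω ρ : Dual F V) (ξ : V →ₗ[F] V) : Prop where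
  mem : ∀ y : F, ∃ m ∈ M, ∀ z, m z = z + y • ξ z
  sq : ∀ z, ξ (ξ z) = 0
  onU : ∀ u ∈ (Ln K w₀ : Submodule F V), ξ u = ω u • w₀
  modU : ∀ z, ξ z - ρ z • c ∈ (Ln K w₀ : Submodule F V)
  w0 : w₀ ≠ 0
  u1 : u₁ ∈ (Ln K w₀ : Submodule F V)
  ωw : ω w₀ = 0
  ωu : ω u₁ = 1
  cU : c ∉ (Ln K w₀ : Submodule F V)
  ρne : ∃ z, ρ z ≠ 0

theorem exists_fun {W : Submodule F V} {x : V} (hx : x ∉ W) : ∃ φ : Dual F V, φ x = 1 ∧ ∀ w ∈ W, φ w = 0 := by
  obtain ⟨f, h1, h2⟩ := Submodule.exists_le_ker_of_notMem hx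
  refine ⟨(f x)⁻¹ • f, ?_, fun w hw => ?_⟩
  · rw [LinearMap.smul_apply, smul_eq_mul, inv_mul_cancel₀ h1]
  · rw [LinearMap.smul_apply, show f w = 0 from h2 hw, smul_zero]

/-- hyperplane decomposition -/
theorem hyper {U W : Submodule F V} (hWU : W ≤ U) (h : finrank F U ≤ finrank F W + 1) {x : V} (hx : x ∈ U)
    (hxW : x ∉ W) {ω : Dual F V} (h1 : ω x = 1) (h0 : ∀ w ∈ W, ω w = 0) {u : V} (hu : u ∈ U) :
    u - ω u • x ∈ W := by
  have hlt : W < W ⊔ Submodule.span F {x} := by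
    refine lt_of_le_of_ne le_sup_left fun heq => hxW ?_
    rw [heq]
    exact Submodule.mem_sup_right (Submodule.mem_span_singleton_self _)
  have hle : W ⊔ Submodule.span F {x} ≤ U := sup_le hWU ((Submodule.span_singleton_le_iff_mem _ _).2 hx)
  have heq : W ⊔ Submodule.span F {x} = U := by
    apply Submodule.eq_of_le_of_finrank_le hle
    have := Submodule.finrank_lt_finrank_of_lt hlt
    omega
  rw [← heq] at hu
  obtain ⟨w, hw, y, hy, rfl⟩ := Submodule.mem_sup.1 hu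
  obtain ⟨s, rfl⟩ := Submodule.mem_span_singleton.1 hy
  rw [map_add, h0 w hw, map_smul, h1, zero_add, smul_eq_mul, mul_one, add_sub_cancel_right]
  exact hw

theorem exists_XD (hr : (finrank F K).Prime) (hHL : HL K M) (h : Pr K M (finrank F K - 1)) :
    ∃ w₀ u₁ c ω ρ ξ, XD K M w₀ u₁ c ω ρ ξ := by
  obtain ⟨g, hg, v, v', hv, hv', hfr⟩ := h
  have hr2 := hr.two_le
  obtain ⟨U, hU⟩ : ∃ U : Submodule F V, U = Ln K v := ⟨_, rfl⟩
  obtain ⟨U', hU'⟩ : ∃ U' : Submodule F V, U' = (Ln K v').map (g : V →ₗ[F] V) := ⟨_, rfl⟩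
  rw [← hU, ← hU'] at hfr
  have hUr : finrank F U = finrank F K := by rw [hU]; exact finrank_Ln hv
  have hU'r : finrank F U' = finrank F K := by
    rw [hU', ← finrank_Ln (F := F) (K := K) hv']
    exact LinearEquiv.finrank_map_eq g _
  obtain ⟨u₁, hu₁, hu₁W⟩ : ∃ x ∈ U, x ∉ U ⊓ U' := Dec.exists_out (by omega)
  obtain ⟨c, hc, hcW⟩ : ∃ x ∈ U', x ∉ U ⊓ U' := Dec.exists_out (by omega)
  obtain ⟨w₀, hw₀, hw₀0⟩ : ∃ x ∈ U ⊓ U', x ≠ 0 := by
    obtain ⟨x, hx, hx0⟩ := Dec.exists_out (U := U ⊓ U') (W := (⊥ : Submodule F V)) (by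
      rw [finrank_bot, hfr]; omega)
    exact ⟨x, hx, fun h => hx0 (by rw [h]; exact Submodule.zero_mem _)⟩
  have hUw : U = Ln K w₀ := by
    rw [hU]; exact (Ln_eq (by rw [← hU]; exact hw₀.1) hw₀0).symm
  obtain ⟨ω, hω1, hω0⟩ := exists_fun hu₁W
  obtain ⟨θ, hθ1, hθ0⟩ := exists_fun hcW
  have hgU' : ∀ y ∈ U', g.symm y ∈ (Ln K v' : Submodule F V) := by
    intro y hy
    rw [hU'] at hy
    obtain ⟨x, hx, rfl⟩ := hy
    show g.symm (g x) ∈ _
    rw [LinearEquiv.symm_apply_apply]; exact hx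
  have hgU'' : ∀ x ∈ (Ln K v' : Submodule F V), g x ∈ U' := by
    intro x hx
    rw [hU']; exact ⟨x, hx, rfl⟩
  obtain ⟨φ, hφ1, hφ0⟩ := exists_dual1 (F := F) (K := K) (v := v') (x := g.symm u₁) (fun h => hu₁W ⟨hu₁, by
    have := hgU'' _ h
    rwa [LinearEquiv.apply_symm_apply] at this⟩)
  have hφ0' : ∀ x ∈ (Ln K v' : Submodule F V), φ x = 0 := by
    intro x hx
    obtain ⟨a, rfl⟩ := mem_Ln.1 hx
    rw [map_smul, hφ0, smul_zero]
  have hv₀ := hgU' w₀ hw₀.2
  obtain ⟨ξ, hξ⟩ : ∃ ξ : V →ₗ[F] V, ∀ z, ξ z = g (φ (g.symm z) • g.symm w₀) :=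
    ⟨(g : V →ₗ[F] V) ∘ₗ ((φ.smulRight (g.symm w₀)).restrictScalars F) ∘ₗ (g.symm : V →ₗ[F] V), fun z => rfl⟩
  have hξU' : ∀ z, ξ z ∈ U' := by
    intro z
    rw [hξ]; exact hgU'' _ (Ln_smul _ hv₀)
  refine ⟨w₀, u₁, c, ω, θ ∘ₗ ξ, ξ, ⟨?_, ?_, ?_, ?_, hw₀0, hUw ▸ hu₁, hω0 _ hw₀, hω1, hUw ▸ fun h => hcW ⟨h, hc⟩, ?_⟩⟩
  · intro y
    have h1 : φ (y • g.symm w₀) = 0 := hφ0' _ (Submodule.smul_mem _ _ hv₀)
    refine ⟨g * kt (y • g.symm w₀) φ h1 * g⁻¹, mul_mem (mul_mem hg (kt_mem hHL _ _ _)) (inv_mem hg), fun z => ?_⟩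
    rw [LinearEquiv.mul_apply, LinearEquiv.mul_apply, kt_apply, map_add, hξ]
    have e1 : g (g⁻¹ z) = z := by rw [← LinearEquiv.mul_apply, mul_inv_cancel]; rfl
    have e2 : g⁻¹ z = g.symm z := rfl
    rw [e1, e2, smul_comm, LinearEquiv.map_smul]
  · intro z
    rw [hξ (ξ z), hφ0' _ (hgU' _ (hξU' z)), zero_smul, map_zero]
  · intro u hu
    rw [← hUw] at hu
    have h1 := hyper (W := U ⊓ U') inf_le_left (by omega) hu₁ hu₁W hω1 hω0 hu
    have h2 : u = (u - ω u • u₁) + ω u • u₁ := by abel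
    conv_lhs => rw [h2]
    rw [map_add, map_smul, hξ (u - _), hφ0' _ (hgU' _ h1.2), zero_smul, map_zero, zero_add, hξ, hφ1, one_smul,
      LinearEquiv.apply_symm_apply]
  · intro z
    rw [← hUw]
    exact (hyper (W := U ⊓ U') inf_le_right (by omega) hc hcW hθ1 hθ0 (hξU' z)).1
  · have h1 := hgU' c hc
    have h2 : (Ln K (g.symm w₀) : Submodule F V) = Ln K v' := Ln_eq hv₀ (fun h => hw₀0 (by
      rwa [LinearEquiv.map_eq_zero_iff] at h))
    rw [← h2] at h1
    obtain ⟨a, ha⟩ := mem_Ln.1 h1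
    refine ⟨g (a • g.symm u₁), ?_⟩
    show θ (ξ (g (a • g.symm u₁))) ≠ 0
    rw [hξ, LinearEquiv.symm_apply_apply, φ.map_smul, hφ1, smul_eq_mul, mul_one, ← ha,
      LinearEquiv.apply_symm_apply, hθ1]
    exact one_ne_zero

variable (K) in
/-- the unipotent elements of the stabiliser of a line acting trivially on the line and the quotient -/
def BM (M : Subgroup (V ≃ₗ[F] V)) (w₀ : V) (h : V →ₗ[F] V) : Prop :=
  (∀ u ∈ (Ln K w₀ : Submodule F V), h u = 0) ∧ (∀ x, h x ∈ (Ln K w₀ : Submodule F V)) ∧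
    ∃ m ∈ M, ∀ x, m x = x + h x

theorem BM.sub {w₀ : V} {h h' : V →ₗ[F] V} (H : BM K M w₀ h) (H' : BM K M w₀ h') : BM K M w₀ (h - h') := by
  obtain ⟨h1, h2, m, hm, hmx⟩ := H
  obtain ⟨h1', h2', m', hm', hmx'⟩ := H'
  refine ⟨fun u hu => by rw [LinearMap.sub_apply, h1 u hu, h1' u hu, sub_zero],
    fun x => Submodule.sub_mem _ (h2 x) (h2' x), m * m'⁻¹, mul_mem hm (inv_mem hm'), fun x => ?_⟩
  have e : m'⁻¹ x = x - h' x := by
    apply m'.injective
    rw [← LinearEquiv.mul_apply, mul_inv_cancel, hmx', map_sub, h1' _ (h2' x)]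
    show x = _
    abel
  rw [LinearEquiv.mul_apply, e, hmx, map_sub, h1 _ (h2' x), LinearMap.sub_apply]
  abel

/-- conjugation by an element fixing the line pointwise -/
theorem BM.conj {w₀ : V} {h : V →ₗ[F] V} (H : BM K M w₀ h) {n : V ≃ₗ[F] V} (hn : n ∈ M)
    (hnU : ∀ u ∈ (Ln K w₀ : Submodule F V), n u = u) : BM K M w₀ (h ∘ₗ (n⁻¹ : V ≃ₗ[F] V).toLinearMap) := by
  obtain ⟨h1, h2, m, hm, hmx⟩ := H
  have hnU' : ∀ u ∈ (Ln K w₀ : Submodule F V), n⁻¹ u = u := by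
    intro u hu
    conv_lhs => rw [← hnU u hu]
    rw [← LinearEquiv.mul_apply, inv_mul_cancel]; rfl
  refine ⟨fun u hu => ?_, fun x => h2 _, n * m * n⁻¹, mul_mem (mul_mem hn hm) (inv_mem hn), fun x => ?_⟩
  · show h (n⁻¹ u) = 0
    rw [hnU' u hu, h1 u hu]
  · rw [LinearEquiv.mul_apply, LinearEquiv.mul_apply, hmx, map_add, hnU _ (h2 _), ← LinearEquiv.mul_apply,
      mul_inv_cancel]
    rfl

theorem BM_kt (hHL : HL K M) {w₀ u : V} (hu : u ∈ (Ln K w₀ : Submodule F V)) {ψ : V →ₗ[K] K} (hψ : ψ w₀ = 0) :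
    BM K M w₀ ((ψ.smulRight u).restrictScalars F) := by
  have h0 : ∀ x ∈ (Ln K w₀ : Submodule F V), ψ x = 0 := by
    intro x hx
    obtain ⟨a, rfl⟩ := mem_Ln.1 hx
    rw [map_smul, hψ, smul_zero]
  refine ⟨fun x hx => ?_, fun x => ?_, kt u ψ (h0 u hu), kt_mem hHL _ _ _, fun x => ?_⟩
  · show ψ x • u = 0
    rw [h0 x hx, zero_smul]
  · show ψ x • u ∈ _
    exact Ln_smul _ hu
  · rw [kt_apply]; rfl

section XDsec
variable {w₀ u₁ c : V} {ω ρ : Dual F V} {ξ : V →ₗ[F] V} (X : XD K M w₀ u₁ c ω ρ ξ)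
include X

theorem XD.ρU {u : V} (hu : u ∈ (Ln K w₀ : Submodule F V)) : ρ u = 0 := by
  have h1 := X.modU u
  rw [X.onU u hu] at h1
  have h2 := Submodule.sub_mem _ (Submodule.smul_mem _ (ω u) (self_mem_Ln w₀)) h1
  rw [sub_sub_cancel] at h2
  by_contra hne
  apply X.cU
  have := Submodule.smul_mem _ (ρ u)⁻¹ h2
  rwa [smul_smul, inv_mul_cancel₀ hne, one_smul] at this

/-- the commutator operation -/
theorem XD.tilde {h : V →ₗ[F] V} (H : BM K M w₀ h) (y : F) {h' : V →ₗ[F] V}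
    (hh' : ∀ z, h' z = (y * ω (h z)) • w₀ - (y * ρ z) • h c - (y * y * ρ z * ω (h c)) • w₀) :
    BM K M w₀ h' := by
  obtain ⟨h1, h2, m, hm, hmx⟩ := H
  obtain ⟨x, hx, hxx⟩ := X.mem y
  have hw := self_mem_Ln (F := F) (K := K) w₀
  refine ⟨fun u hu => ?_, fun z => ?_, x * m * x⁻¹ * m⁻¹,
    mul_mem (mul_mem (mul_mem hx hm) (inv_mem hx)) (inv_mem hm), fun z => ?_⟩
  · rw [hh', h1 u hu, X.ρU hu]; simp
  · rw [hh']
    exact Submodule.sub_mem _ (Submodule.sub_mem _ (Submodule.smul_mem _ _ hw) (Submodule.smul_mem _ _ (h2 c)))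
      (Submodule.smul_mem _ _ hw)
  · have em : m⁻¹ z = z - h z := by
      apply m.injective
      rw [← LinearEquiv.mul_apply, mul_inv_cancel, hmx, map_sub, h1 _ (h2 z)]
      show z = _
      abel
    have ex : ∀ z, x⁻¹ z = z - y • ξ z := by
      intro z
      apply x.injective
      rw [← LinearEquiv.mul_apply, mul_inv_cancel, hxx, map_sub, map_smul, X.sq]
      show z = _
      rw [smul_zero, sub_zero, sub_add_cancel]
    have hξ : ∀ z, h (ξ z) = ρ z • h c := by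
      intro z
      have h3 := h1 _ (X.modU z)
      rw [map_sub, map_smul, sub_eq_zero] at h3
      exact h3
    have hξh : ∀ z, ξ (h z) = ω (h z) • w₀ := fun z => X.onU _ (h2 z)
    rw [LinearEquiv.mul_apply, LinearEquiv.mul_apply, LinearEquiv.mul_apply, em, ex, hmx, hxx, hh']
    simp only [map_sub, map_add, map_smul, hξ, hξh, X.sq, X.ωw, h1 _ hw, h1 _ (h2 _), X.onU _ hw, smul_zero,
      zero_smul, sub_zero, smul_eq_mul]
    module

/-- rank one elements, more than two scalars -/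
theorem XD.rank1a (hHL : HL K M) {y : F} (hy0 : y ≠ 0) (hy1 : y ≠ 1) : RG M w₀ ρ := by
  obtain ⟨ψ, hψ1, hψ0⟩ := exists_dual1 (F := F) (K := K) X.cU
  refine ⟨X.ρU (self_mem_Ln _), fun s => ?_⟩
  have hyy : y * y - y ≠ 0 := by
    rw [← mul_sub_one]
    exact mul_ne_zero hy0 (sub_ne_zero.2 hy1)
  obtain ⟨a, ha⟩ : ∃ a, a = -s / (y * y - y) := ⟨_, rfl⟩
  have H1 := BM_kt (F := F) hHL (Submodule.smul_mem _ a X.u1) hψ0
  have H2 := BM_kt (F := F) hHL (Submodule.smul_mem _ (y * a) X.u1) hψ0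
  have e1 : ∀ z, ((ψ.smulRight (a • u₁)).restrictScalars F : V →ₗ[F] V) z = a • ψ z • u₁ := by
    intro z
    show ψ z • a • u₁ = _
    rw [smul_comm]
  have e2 : ∀ z, ((ψ.smulRight ((y * a) • u₁)).restrictScalars F : V →ₗ[F] V) z = (y * a) • ψ z • u₁ := by
    intro z
    show ψ z • (y * a) • u₁ = _
    rw [smul_comm]
  obtain ⟨κ, hκ⟩ : ∃ κ : V →ₗ[F] V, ∀ z, κ z = ψ z • u₁ :=
    ⟨(ψ.smulRight u₁).restrictScalars F, fun z => rfl⟩
  have H3 := X.tilde H1 y (h' := (y * a) • (ω ∘ₗ κ).smulRight w₀ - (y * a) • (ρ.smulRight (κ c)) -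
    (y * y * a) • ρ.smulRight w₀) (fun z => by
      rw [e1, e1]
      simp only [LinearMap.sub_apply, LinearMap.smul_apply, LinearMap.smulRight_apply, LinearMap.comp_apply, hκ,
        hψ1, one_smul, map_smul, X.ωu, smul_eq_mul]
      module)
  have H4 := X.tilde H2 1 (h' := (y * a) • (ω ∘ₗ κ).smulRight w₀ - (y * a) • (ρ.smulRight (κ c)) -
    (y * a) • ρ.smulRight w₀) (fun z => by
      rw [e2, e2]
      simp only [LinearMap.sub_apply, LinearMap.smul_apply, LinearMap.smulRight_apply, LinearMap.comp_apply, hκ,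
        hψ1, one_smul, map_smul, X.ωu, smul_eq_mul]
      module)
  obtain ⟨-, -, m, hm, hmx⟩ := H3.sub H4
  refine ⟨m, hm, fun z => ?_⟩
  rw [hmx]
  simp only [LinearMap.sub_apply, LinearMap.smul_apply, LinearMap.smulRight_apply, LinearMap.comp_apply]
  have e3 : s = -(y * y * a) + y * a := by
    rw [ha]; field_simp; ring
  rw [e3]
  module

/-- rank one elements, dimension at least three -/
theorem XD.rank1b (hHL : HL K M) (hk : 3 ≤ finrank K V) :
    ∃ β : Dual F V, β ≠ 0 ∧ (∀ u ∈ (Ln K w₀ : Submodule F V), β u = 0) ∧ RG M w₀ β := by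
  obtain ⟨z₁, hz₁⟩ := exists_out2 (K := K) hk w₀ c
  obtain ⟨ψ, hψ1, hψ0⟩ := exists_dual hz₁
  have hψw : ψ w₀ = 0 := hψ0 _ (Submodule.subset_span (by simp))
  have hψc : ψ c = 0 := hψ0 _ (Submodule.subset_span (by simp))
  obtain ⟨κ, hκ⟩ : ∃ κ : V →ₗ[F] V, ∀ z, κ z = ψ z • u₁ :=
    ⟨(ψ.smulRight u₁).restrictScalars F, fun z => rfl⟩
  have hκU : ∀ u ∈ (Ln K w₀ : Submodule F V), κ u = 0 := by
    intro u hu
    obtain ⟨a, rfl⟩ := mem_Ln.1 hu
    rw [hκ, map_smul, hψw, smul_zero, zero_smul]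
  refine ⟨ω ∘ₗ κ, ?_, fun u hu => by rw [LinearMap.comp_apply, hκU u hu, map_zero], ?_, fun s => ?_⟩
  · intro h
    have h1 := congrArg (fun f : Dual F V => f z₁) h
    simp only [LinearMap.comp_apply, hκ, hψ1, one_smul, X.ωu, LinearMap.zero_apply] at h1
    exact one_ne_zero h1
  · rw [LinearMap.comp_apply, hκU _ (self_mem_Ln _), map_zero]
  · have H1 := BM_kt (F := F) hHL (Submodule.smul_mem _ s X.u1) hψw
    have e1 : ∀ z, ((ψ.smulRight (s • u₁)).restrictScalars F : V →ₗ[F] V) z = s • ψ z • u₁ := by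
      intro z
      show ψ z • s • u₁ = _
      rw [smul_comm]
    obtain ⟨-, -, m, hm, hmx⟩ := X.tilde H1 1 (h' := s • (ω ∘ₗ κ).smulRight w₀) (fun z => by
      rw [e1, e1]
      simp only [LinearMap.smul_apply, LinearMap.smulRight_apply, LinearMap.comp_apply, hκ, hψc, zero_smul,
        map_zero, smul_zero, mul_zero, sub_zero, map_smul, smul_eq_mul]
      module)
    refine ⟨m, hm, fun z => ?_⟩
    rw [hmx]
    simp only [LinearMap.smul_apply, LinearMap.smulRight_apply, smul_smul]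

/-- rank one elements, two scalars, degree at least three -/
theorem XD.rank1c (hHL : HL K M) (h2 : ∀ y : F, y ≠ 0 → y = 1) (hr3 : 3 ≤ finrank F K) :
    ∃ β : Dual F V, β ≠ 0 ∧ (∀ u ∈ (Ln K w₀ : Submodule F V), β u = 0) ∧ RG M w₀ β := by
  have hRG : ∀ {β : Dual F V} {h : V →ₗ[F] V}, BM K M w₀ h → (∀ z, h z = β z • w₀) → RG M w₀ β := by
    intro β h H hβ
    have hw := self_mem_Ln (F := F) (K := K) w₀
    refine ⟨?_, fun s => ?_⟩
    · have := H.1 w₀ hw
      rw [hβ] at this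
      exact (smul_eq_zero.1 this).resolve_right X.w0
    · by_cases hs : s = 0
      · exact ⟨1, one_mem _, fun x => by rw [hs]; simp⟩
      · obtain ⟨m, hm, hmx⟩ := H.2.2
        exact ⟨m, hm, fun x => by rw [hmx, hβ, h2 s hs, one_mul]⟩
  obtain ⟨ψ, hψ1, hψ0⟩ := exists_dual1 (F := F) (K := K) X.cU
  obtain ⟨κ, hκ⟩ : ∃ κ : K → V →ₗ[F] V, ∀ a z, κ a z = (ψ z * a) • w₀ :=
    ⟨fun a => (ψ.smulRight (a • w₀)).restrictScalars F, fun a z => by
      show ψ z • a • w₀ = _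
      rw [smul_smul]⟩
  have hκB : ∀ a, BM K M w₀ (κ a) := by
    intro a
    have h3 : κ a = (ψ.smulRight (a • w₀)).restrictScalars F := by
      apply LinearMap.ext
      intro z
      rw [hκ]
      show _ = ψ z • a • w₀
      rw [smul_smul]
    rw [h3]
    exact BM_kt hHL (smul_mem_Ln w₀ a) hψ0
  have hψU : ∀ u ∈ (Ln K w₀ : Submodule F V), ψ u = 0 := by
    intro u hu
    obtain ⟨a, rfl⟩ := mem_Ln.1 hu
    rw [map_smul, hψ0, smul_zero]
  by_cases hb : ω ∘ₗ κ 1 - ρ = 0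
  · have hρ : ∀ z, ρ z = ω (ψ z • w₀) := by
      intro z
      have h3 := congrArg (fun f : Dual F V => f z) hb
      simp only [LinearMap.sub_apply, LinearMap.comp_apply, hκ, mul_one, LinearMap.zero_apply] at h3
      exact (sub_eq_zero.1 h3).symm
    obtain ⟨b, hb'⟩ := mem_Ln.1 X.u1
    -- μ
    obtain ⟨C, hC⟩ : ∃ C : Submodule F K, ∀ a, a ∈ C ↔ ω (a • w₀) = 0 :=
      ⟨LinearMap.ker (ω ∘ₗ (LinearMap.toSpanSingleton K V w₀).restrictScalars F), fun a => Iff.rfl⟩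
    obtain ⟨μ, hμC, hμ⟩ : ∃ μ ∈ C, μ ∉ Submodule.span F {(1 : K)} := by
      apply Dec.exists_out
      have h3 : finrank F (Submodule.span F {(1 : K)}) ≤ 1 := by
        have := finrank_span_le_card (R := F) ({(1 : K)} : Set K)
        simpa using this
      have h4 := LinearMap.finrank_range_add_finrank_ker (ω ∘ₗ (LinearMap.toSpanSingleton K V w₀).restrictScalars F)
      have h5 : finrank F (LinearMap.range (ω ∘ₗ (LinearMap.toSpanSingleton K V w₀).restrictScalars F)) ≤ 1 := by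
        have := Submodule.finrank_le (LinearMap.range (ω ∘ₗ (LinearMap.toSpanSingleton K V w₀).restrictScalars F))
        rwa [finrank_self] at this
      have h6 : C = LinearMap.ker (ω ∘ₗ (LinearMap.toSpanSingleton K V w₀).restrictScalars F) := by
        ext a
        rw [hC]; exact Iff.rfl
      rw [h6]
      omega
    have hμ0 : μ ≠ 0 := by rintro rfl; exact hμ (Submodule.zero_mem _)
    rw [hC] at hμC
    -- first tilde
    obtain ⟨τ, hτ⟩ : ∃ τ : Dual F V, ∀ z, τ z = ω ((ψ z * b) • w₀) := ⟨ω ∘ₗ κ b, fun z => by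
      rw [LinearMap.comp_apply, hκ]⟩
    have hbω : ω (b • w₀) = 1 := by rw [← hb']; exact X.ωu
    have H1 := X.tilde (hκB b) 1 (h' := τ.smulRight w₀ - ρ.smulRight (b • w₀ + w₀)) (fun z => by
      simp only [LinearMap.sub_apply, LinearMap.smulRight_apply, hκ, hψ1, one_mul, ← hτ, hbω, mul_one]
      module)
    -- the homology
    have hμ1 : (μ⁻¹ - 1) * (ψ c) + 1 = μ⁻¹ := by rw [hψ1]; ring
    obtain ⟨n, hn, hnM⟩ : ∃ n : V ≃ₗ[F] V, (∀ z, n z = z + ((μ⁻¹ - 1) * ψ z) • c) ∧ n ∈ M := by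
      obtain ⟨n, hn, hd⟩ := exists_homology (V := V) hψ1 (inv_ne_zero hμ0)
      refine ⟨n.restrictScalars F, hn, hHL n ?_⟩
      rw [hd]
      apply h2
      rw [Algebra.norm_ne_zero_iff]
      exact inv_ne_zero hμ0
    have hnU : ∀ u ∈ (Ln K w₀ : Submodule F V), n u = u := by
      intro u hu
      rw [hn, hψU u hu, mul_zero, zero_smul, add_zero]
    have hψn : ∀ z, ψ (n⁻¹ z) = μ * ψ z := by
      intro z
      have h3 : ∀ z, ψ (n z) = μ⁻¹ * ψ z := by
        intro z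
        rw [hn, map_add, map_smul, hψ1, smul_eq_mul]; ring
      have h4 : n (n⁻¹ z) = z := by rw [← LinearEquiv.mul_apply, mul_inv_cancel]; rfl
      have h5 := h3 (n⁻¹ z)
      rw [h4] at h5
      rw [h5, ← mul_assoc, mul_inv_cancel₀ hμ0, one_mul]
    have H2 := H1.conj hnM hnU
    obtain ⟨σ, hσ⟩ : ∃ σ : F, σ = ω ((μ * b) • w₀) := ⟨_, rfl⟩
    obtain ⟨β, hβ⟩ : ∃ β : Dual F V, ∀ z, β z = -(ω ((μ * ψ z) • w₀)) - σ * ω (ψ z • w₀) :=
      ⟨-(ω ∘ₗ κ μ) - σ • (ω ∘ₗ κ 1), fun z => by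
        simp only [LinearMap.sub_apply, LinearMap.neg_apply, LinearMap.smul_apply, LinearMap.comp_apply, hκ,
          mul_one, smul_eq_mul]
        rw [mul_comm (ψ z) μ]⟩
    have hval : ∀ z, ((τ.smulRight w₀ - ρ.smulRight (b • w₀ + w₀)) ∘ₗ (n⁻¹ : V ≃ₗ[F] V).toLinearMap) z =
        (ω ((μ * ψ z * b) • w₀)) • w₀ - ω ((μ * ψ z) • w₀) • (b • w₀ + w₀) := by
      intro z
      have e : ((n⁻¹ : V ≃ₗ[F] V).toLinearMap) z = n⁻¹ z := rfl
      simp only [LinearMap.comp_apply, LinearMap.sub_apply, LinearMap.smulRight_apply, e, hτ, hρ, hψn]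
    have H3 := X.tilde H2 1 (h' := β.smulRight w₀) (fun z => by
      rw [hval, hval]
      simp only [hψ1, mul_one, map_sub, map_smul, map_add, X.ωw, smul_eq_mul, mul_zero, zero_sub, hbω, hμC,
        zero_smul, sub_zero, ← hσ, LinearMap.smulRight_apply, hβ, one_mul, add_zero, hρ]
      module)
    refine ⟨β, ?_, ?_, hRG H3 (fun z => rfl)⟩
    · intro h3
      have hne : μ + algebraMap F K σ ≠ 0 := by
        intro h4
        apply hμ
        rw [Submodule.mem_span_singleton]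
        refine ⟨-σ, ?_⟩
        rw [Algebra.smul_def, mul_one, map_neg]
        exact (eq_neg_of_add_eq_zero_left h4).symm
      have h4 := hβ (((μ + algebraMap F K σ)⁻¹ * b) • c)
      rw [h3, ψ.map_smul, hψ1, smul_eq_mul, mul_one, LinearMap.zero_apply] at h4
      have h5 : -(ω ((μ * ((μ + algebraMap F K σ)⁻¹ * b)) • w₀)) - σ * ω (((μ + algebraMap F K σ)⁻¹ * b) • w₀) =
          - ω (b • w₀) := by
        rw [← smul_eq_mul σ, ← map_smul ω, ← algebraMap_smul K σ, smul_smul]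
        rw [neg_sub_left, ← map_add, ← add_smul]
        congr 3
        rw [← add_mul, add_comm (algebraMap F K σ), ← mul_assoc, mul_inv_cancel₀ hne, one_mul]
      rw [h5, hbω] at h4
      exact one_ne_zero (neg_eq_zero.1 h4.symm)
    · intro u hu
      rw [hβ, hψU u hu]; simp
  · refine ⟨_, hb, fun u hu => ?_, hRG (X.tilde (hκB 1) 1 (h' := (ω ∘ₗ κ 1 - ρ).smulRight w₀) (fun z => ?_))
      (fun z => rfl)⟩
    · rw [LinearMap.sub_apply, LinearMap.comp_apply, hκ, hψU u hu, X.ρU hu]; simp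
    · simp only [LinearMap.sub_apply, LinearMap.smulRight_apply, LinearMap.comp_apply, hκ, hψ1, one_mul, mul_one,
        one_smul, X.ωw]
      module

end XDsec

/-- D1, dimension at least three -/
theorem D1a (hHL : HL K M) (hk : 3 ≤ finrank K V) {w₀ : V} {b : Dual F K} {ψ₀ : V →ₗ[K] K} (h0 : ψ₀ w₀ = 0)
    (hne : ψ₀ ≠ 0) {β : Dual F V} (hβ : ∀ x, β x = b (ψ₀ x)) (h : RG M w₀ β) {φ : V →ₗ[K] K} (hφ : φ w₀ = 0)
    {γ : Dual F V} (hγ : ∀ x, γ x = b (φ x)) : RG M w₀ γ := by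
  -- good functionals
  have good : ∀ (φ : V →ₗ[K] K), φ w₀ = 0 → (∃ y, φ y = 0 ∧ ψ₀ y = 1) → ∀ (γ : Dual F V), (∀ x, γ x = b (φ x)) →
      RG M w₀ γ := by
    rintro φ hφ ⟨y, hy0, hy1⟩ γ hγ
    have hm := kt_mem hHL y φ hy0
    have h1 : RG M ((kt y φ hy0 : V ≃ₗ[F] V) w₀) (β - γ) := h.map hm (fun x => by
      have e1 : ψ₀ (x + φ x • y) = ψ₀ x + φ x := by
        rw [map_add, ψ₀.map_smul, hy1, smul_eq_mul, mul_one]
      have e2 : φ (x + φ x • y) = φ x := by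
        rw [map_add, φ.map_smul, hy0, smul_zero, add_zero]
      rw [kt_apply, LinearMap.sub_apply, hβ, hβ, hγ, e1, e2, map_add, add_sub_cancel_right])
    rw [kt_apply, hφ, zero_smul, add_zero] at h1
    have h2 := h.sub_right h1
    rwa [sub_sub_cancel] at h2
  obtain ⟨z₁, hz₁⟩ : ∃ z, ψ₀ z = 1 := by
    obtain ⟨z, hz⟩ : ∃ z, ψ₀ z ≠ 0 := by
      by_contra hcon
      push Not at hcon
      exact hne (LinearMap.ext hcon)
    exact ⟨(ψ₀ z)⁻¹ • z, by rw [map_smul, smul_eq_mul, inv_mul_cancel₀ hz]⟩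
  obtain ⟨z₂, hz₂, hz₂w⟩ : ∃ z ∈ LinearMap.ker ψ₀, z ∉ Submodule.span K {w₀} := by
    apply Dec.exists_out
    have h3 : finrank K (Submodule.span K {w₀}) ≤ 1 := by
      have := finrank_span_le_card (R := K) ({w₀} : Set V)
      simpa using this
    have h4 := LinearMap.finrank_range_add_finrank_ker ψ₀
    have h5 : finrank K (LinearMap.range ψ₀) ≤ 1 := by
      have := Submodule.finrank_le (LinearMap.range ψ₀)
      rwa [finrank_self] at this
    omega
  rw [LinearMap.mem_ker] at hz₂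
  have hz₂' : z₂ ∉ Submodule.span K {w₀, z₁} := by
    intro h3
    obtain ⟨a, c, hac⟩ := Submodule.mem_span_pair.1 h3
    have h4 := hz₂
    rw [← hac, map_add, map_smul, map_smul, h0, hz₁, smul_zero, zero_add, smul_eq_mul, mul_one] at h4
    apply hz₂w
    rw [← hac, h4, zero_smul, add_zero]
    exact Submodule.smul_mem _ _ (Submodule.mem_span_singleton_self _)
  obtain ⟨χ, hχ1, hχ0⟩ := exists_dual hz₂'
  have hχw : χ w₀ = 0 := hχ0 _ (Submodule.subset_span (by simp))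
  have hχz : χ z₁ = 0 := hχ0 _ (Submodule.subset_span (by simp))
  obtain ⟨t, ht⟩ : ∃ t, t = 1 - φ z₂ := ⟨_, rfl⟩
  have g1 := good (φ + t • χ) (by rw [LinearMap.add_apply, LinearMap.smul_apply, hφ, hχw, smul_zero, add_zero])
    ⟨z₁ - (φ z₁) • z₂, by
      rw [map_sub, map_smul, LinearMap.add_apply, LinearMap.add_apply, LinearMap.smul_apply, LinearMap.smul_apply,
        hχ1, hχz, ht, smul_eq_mul, smul_eq_mul, smul_eq_mul]
      ring, by rw [map_sub, map_smul, hz₁, hz₂, smul_zero, sub_zero]⟩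
    (b ∘ₗ (φ + t • χ).restrictScalars F) (fun x => rfl)
  have g2 := good (t • χ) (by rw [LinearMap.smul_apply, hχw, smul_zero])
    ⟨z₁, by rw [LinearMap.smul_apply, hχz, smul_zero], hz₁⟩ (b ∘ₗ (t • χ).restrictScalars F) (fun x => rfl)
  have h3 := g1.sub_right g2
  have h4 : γ = b ∘ₗ (φ + t • χ).restrictScalars F - b ∘ₗ (t • χ).restrictScalars F := by
    apply LinearMap.ext
    intro x
    show γ x = b (φ x + (t • χ) x) - b ((t • χ) x)
    rw [hγ, map_add, add_sub_cancel_right]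
  rw [h4]; exact h3

/-- D1, dimension two -/
theorem D1b (hr : (finrank F K).Prime) (hHL : HL K M) (hk : finrank K V = 2)
    {δ : K} (hδ : δ ∉ Set.range (algebraMap F K)) (hδ1 : Algebra.norm F δ = 1)
    {w₀ : V} (hw₀ : w₀ ≠ 0) {b : Dual F K} {ψ₀ : V →ₗ[K] K} (h0 : ψ₀ w₀ = 0)
    (hne : ψ₀ ≠ 0) {β : Dual F V} (hβ : ∀ x, β x = b (ψ₀ x)) (h : RG M w₀ β) {φ : V →ₗ[K] K} (hφ : φ w₀ = 0)
    {γ : Dual F V} (hγ : ∀ x, γ x = b (φ x)) : RG M w₀ γ := by
  obtain ⟨z₁, hz₁⟩ : ∃ z, ψ₀ z = 1 := by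
    obtain ⟨z, hz⟩ : ∃ z, ψ₀ z ≠ 0 := by
      by_contra hcon
      push Not at hcon
      exact hne (LinearMap.ext hcon)
    exact ⟨(ψ₀ z)⁻¹ • z, by rw [map_smul, smul_eq_mul, inv_mul_cancel₀ hz]⟩
  have hδ0 : δ ≠ 0 := by rintro rfl; exact hδ ⟨0, map_zero _⟩
  obtain ⟨C, hC⟩ : ∃ C : Submodule F K, ∀ a, a ∈ C ↔ RG M w₀ (b ∘ₗ (a • ψ₀).restrictScalars F) := by
    refine ⟨⟨⟨⟨{a | RG M w₀ (b ∘ₗ (a • ψ₀).restrictScalars F)}, ?_⟩, ?_⟩, ?_⟩, fun a => Iff.rfl⟩
    · intro a c ha hc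
      have h1 := RG.add_right ha hc
      have h2 : b ∘ₗ ((a + c) • ψ₀).restrictScalars F = b ∘ₗ (a • ψ₀).restrictScalars F +
          b ∘ₗ (c • ψ₀).restrictScalars F := by
        apply LinearMap.ext
        intro x
        show b ((a + c) • ψ₀ x) = b (a • ψ₀ x) + b (c • ψ₀ x)
        rw [add_smul, map_add]
      show RG M w₀ (b ∘ₗ ((a + c) • ψ₀).restrictScalars F)
      rw [h2]; exact h1
    · show RG M w₀ (b ∘ₗ ((0 : K) • ψ₀).restrictScalars F)
      have h2 : b ∘ₗ ((0 : K) • ψ₀).restrictScalars F = 0 := by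
        apply LinearMap.ext
        intro x
        show b ((0 : K) • ψ₀ x) = 0
        rw [zero_smul, map_zero]
      rw [h2]
      exact ⟨rfl, fun c => ⟨1, one_mem _, fun x => by simp⟩⟩
    · intro s a ha
      have h1 := RG.smul_right ha s
      have h2 : b ∘ₗ ((s • a) • ψ₀).restrictScalars F = s • (b ∘ₗ (a • ψ₀).restrictScalars F) := by
        apply LinearMap.ext
        intro x
        show b ((s • a) • ψ₀ x) = s • b (a • ψ₀ x)
        rw [smul_assoc, map_smul]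
      show RG M w₀ (b ∘ₗ ((s • a) • ψ₀).restrictScalars F)
      rw [h2]; exact h1
  have h1C : (1 : K) ∈ C := by
    rw [hC]
    have h2 : b ∘ₗ ((1 : K) • ψ₀).restrictScalars F = β := by
      apply LinearMap.ext
      intro x
      show b ((1 : K) • ψ₀ x) = β x
      rw [one_smul, hβ]
    rw [h2]; exact h
  have hstab : ∀ a ∈ C, δ * a ∈ C := by
    intro a ha
    rw [hC] at ha ⊢
    obtain ⟨n, hn, hd⟩ := exists_homology (V := V) hz₁ (inv_ne_zero hδ0)
    have hnM : n.restrictScalars F ∈ M := hHL n (by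
      have h1 : Algebra.norm F (δ * δ⁻¹) = 1 := by rw [mul_inv_cancel₀ hδ0, map_one]
      rw [map_mul, hδ1, one_mul] at h1
      rw [hd, h1])
    have h1 : RG M ((n.restrictScalars F) w₀) (b ∘ₗ ((δ * a) • ψ₀).restrictScalars F) := ha.map hnM (fun x => by
      show b ((δ * a) • ψ₀ (n x)) = b (a • ψ₀ x)
      have e1 : ψ₀ (n x) = δ⁻¹ * ψ₀ x := by
        rw [hn, map_add, ψ₀.map_smul, hz₁, smul_eq_mul]; ring
      have e2 : (δ * a) • (δ⁻¹ * ψ₀ x) = a • ψ₀ x := by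
        rw [smul_eq_mul, smul_eq_mul]
        field_simp
      rw [e1, e2])
    have h2 : (n.restrictScalars F) w₀ = w₀ := by
      show n w₀ = w₀
      rw [hn, h0, mul_zero, zero_smul, add_zero]
    rw [h2] at h1
    exact h1
  have hφψ : ∀ x, φ x = φ z₁ * ψ₀ x := by
    intro x
    have hx : x - ψ₀ x • z₁ ∈ Submodule.span K {w₀} := by
      have h3 : Submodule.span K {w₀} = LinearMap.ker ψ₀ := by
        apply Submodule.eq_of_le_of_finrank_le
        · rw [Submodule.span_singleton_le_iff_mem, LinearMap.mem_ker, h0]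
        · rw [finrank_span_singleton hw₀]
          have h4 := LinearMap.finrank_range_add_finrank_ker ψ₀
          have h5 : 0 < finrank K (LinearMap.range ψ₀) := by
            apply Nat.pos_of_ne_zero
            intro h6
            rw [Submodule.finrank_eq_zero, LinearMap.range_eq_bot] at h6
            exact hne h6
          omega
      rw [h3, LinearMap.mem_ker, map_sub, map_smul, hz₁, smul_eq_mul, mul_one, sub_self]
    obtain ⟨a, ha⟩ := Submodule.mem_span_singleton.1 hx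
    have h3 : φ (x - ψ₀ x • z₁) = 0 := by rw [← ha, map_smul, hφ, smul_zero]
    rw [map_sub, map_smul, sub_eq_zero, smul_eq_mul] at h3
    rw [h3, mul_comm]
  have h3 := stable hr hδ hstab (φ z₁) h1C
  rw [mul_one, hC] at h3
  have h4 : γ = b ∘ₗ ((φ z₁) • ψ₀).restrictScalars F := by
    apply LinearMap.ext
    intro x
    show γ x = b (φ z₁ • ψ₀ x)
    rw [hγ, hφψ, smul_eq_mul]
  rw [h4]; exact h3

/-- transitivity on nonzero vectors -/
theorem exists_move (hHL : HL K M) (hk : 2 ≤ finrank K V) {u v : V} (hu : u ≠ 0) (hv : v ≠ 0) :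
    ∃ m ∈ M, m u = v ∧ ∀ (a : K) x, m (a • x) = a • m x := by
  have hlin : ∀ (y : V) (φ : V →ₗ[K] K) (h : φ y = 0) (a : K) (x : V),
      (kt y φ h : V ≃ₗ[F] V) (a • x) = a • (kt y φ h : V ≃ₗ[F] V) x := by
    intro y φ h a x
    rw [kt_apply, kt_apply, map_smul, smul_add, smul_smul, smul_eq_mul]
  have key : ∀ u v : V, u ≠ 0 → v ∉ (Ln K u : Submodule F V) → ∃ m ∈ M, m u = v ∧
      ∀ (a : K) x, m (a • x) = a • m x := by
    intro u v hu hv
    have hu' : u ∉ (Ln K v : Submodule F V) := by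
      intro h
      apply hv
      rw [Ln_eq h hu]
      exact self_mem_Ln v
    obtain ⟨φ₁, h1, h2⟩ := exists_dual1 (F := F) (K := K) hu'
    obtain ⟨φ₂, h3, h4⟩ := exists_dual1 (F := F) (K := K) hv
    have h5 : (φ₁ + φ₂) (v - u) = 0 := by
      rw [LinearMap.add_apply, map_sub, map_sub, h1, h2, h3, h4]; ring
    refine ⟨kt (v - u) (φ₁ + φ₂) h5, kt_mem hHL _ _ _, ?_, hlin _ _ _⟩
    rw [kt_apply, LinearMap.add_apply, h1, h4, add_zero, one_smul, add_sub_cancel]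
  by_cases h : v ∈ (Ln K u : Submodule F V)
  · obtain ⟨z, hz⟩ := exists_out1 (F := F) (K := K) hk u
    have hz0 : z ≠ 0 := by rintro rfl; exact hz (Submodule.zero_mem _)
    obtain ⟨m₁, hm₁, h1, h1'⟩ := key u z hu hz
    obtain ⟨m₂, hm₂, h2, h2'⟩ := key z v hz0 (fun h3 => hz (by
      rw [← Ln_eq h hv, Ln_eq h3 hv]
      exact self_mem_Ln z))
    exact ⟨m₂ * m₁, mul_mem hm₂ hm₁, by rw [LinearEquiv.mul_apply, h1, h2], fun a x => by
      rw [LinearEquiv.mul_apply, h1', h2', LinearEquiv.mul_apply]⟩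
  · exact key u v hu h

/-- the conclusion from one rank one element -/
theorem all_of_rank1 (hr : (finrank F K).Prime) (hHL : HL K M) (hk : 2 ≤ finrank K V)
    (hδ : finrank K V = 2 → ∃ δ : K, δ ∉ Set.range (algebraMap F K) ∧ Algebra.norm F δ = 1)
    {w₀ : V} (hw₀ : w₀ ≠ 0) {β : Dual F V} (hβ : β ≠ 0) (hβU : ∀ u ∈ (Ln K w₀ : Submodule F V), β u = 0)
    (h : RG M w₀ β) : ∀ (u : V) (φ : Dual F V) (h : φ u = 0), tr u φ h ∈ M := by
  -- a functional on K
  obtain ⟨b, hb⟩ : ∃ b : Dual F K, b ≠ 0 := by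
    have : Nontrivial (Dual F K) := by
      rw [← Module.finrank_pos_iff (R := F), Subspace.dual_finrank_eq]
      exact hr.pos
    exact exists_ne 0
  have hbinj : ∀ c : K, (∀ a, b (a * c) = 0) → c = 0 := by
    intro c hc
    by_contra hc0
    apply hb
    apply LinearMap.ext
    intro a
    have := hc (a * c⁻¹)
    rw [mul_assoc, inv_mul_cancel₀ hc0, mul_one] at this
    exact this
  have hkill : ∀ {γ : Dual F V} {φ : V →ₗ[K] K} (hγ : ∀ x, γ x = b (φ x)) {u : V},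
      (∀ x ∈ (Ln K u : Submodule F V), γ x = 0) → φ u = 0 := by
    intro γ φ hγ u hu
    apply hbinj
    intro a
    have := hu _ (smul_mem_Ln u a)
    rwa [hγ, map_smul] at this
  obtain ⟨ψ₀, hψ₀⟩ := exists_lift (K := K) hb β
  have h0 : ψ₀ w₀ = 0 := hkill hψ₀ hβU
  have hne : ψ₀ ≠ 0 := by
    rintro rfl
    apply hβ
    apply LinearMap.ext
    intro x
    rw [hψ₀]; simp
  have hD1 : ∀ γ : Dual F V, (∀ x ∈ (Ln K w₀ : Submodule F V), γ x = 0) → RG M w₀ γ := by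
    intro γ hγ0
    obtain ⟨φ, hφ⟩ := exists_lift (K := K) hb γ
    have hφ0 := hkill hφ hγ0
    rcases Nat.lt_or_ge (finrank K V) 3 with h3 | h3
    · obtain ⟨δ, hδ1, hδ2⟩ := hδ (by omega)
      exact D1b hr hHL (by omega) hδ1 hδ2 hw₀ h0 hne hψ₀ h hφ0 hφ
    · exact D1a hHL h3 h0 hne hψ₀ h hφ0 hφ
  have hD2 : ∀ (u : V) (γ : Dual F V), (∀ x ∈ (Ln K u : Submodule F V), γ x = 0) → RG M u γ := by
    intro u γ hγ0
    by_cases hu : u = 0
    · subst hu
      exact ⟨map_zero _, fun c => ⟨1, one_mem _, fun x => by simp⟩⟩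
    · obtain ⟨m, hm, hmu, hml⟩ := exists_move hHL hk hw₀ hu
      have h1 := hD1 (γ ∘ₗ (m : V →ₗ[F] V)) (fun x hx => by
        obtain ⟨a, rfl⟩ := mem_Ln.1 hx
        show γ (m (a • w₀)) = 0
        rw [hml, hmu]
        exact hγ0 _ (smul_mem_Ln u a))
      have h2 : RG M (m w₀) γ := h1.map hm (fun x => rfl)
      rwa [hmu] at h2
  intro u φ hφ
  apply RG.mem (M := M) (v := u) (φ := φ)
  by_cases hu : ∀ x ∈ (Ln K u : Submodule F V), φ x = 0
  · exact hD2 u φ hu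
  · obtain ⟨ψ, hψ⟩ := exists_lift (K := K) hb φ
    have hψu : ψ u ≠ 0 := by
      intro h1
      apply hu
      intro x hx
      obtain ⟨a, rfl⟩ := mem_Ln.1 hx
      rw [hψ, map_smul, h1, smul_zero, map_zero]
    obtain ⟨w, hw, hw0⟩ : ∃ w, ψ w = 0 ∧ w ≠ 0 := by
      obtain ⟨w, hw, hw0⟩ : ∃ w ∈ LinearMap.ker ψ, w ∉ (⊥ : Submodule K V) := by
        apply Dec.exists_out
        rw [finrank_bot]
        have h4 := LinearMap.finrank_range_add_finrank_ker ψ
        have h5 : finrank K (LinearMap.range ψ) ≤ 1 := by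
          have := Submodule.finrank_le (LinearMap.range ψ)
          rwa [finrank_self] at this
        omega
      exact ⟨w, hw, fun h => hw0 (by rw [h]; exact Submodule.zero_mem _)⟩
    have hwu : w ∉ (Ln K u : Submodule F V) := by
      intro h1
      obtain ⟨a, rfl⟩ := mem_Ln.1 h1
      rw [map_smul, smul_eq_mul] at hw
      rcases mul_eq_zero.1 hw with h2 | h2
      · rw [h2, zero_smul] at hw0; exact hw0 rfl
      · exact hψu h2
    obtain ⟨α, hα1, hα0⟩ := exists_fun hwu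
    have g1 := hD2 u α hα0
    have g2 := hD2 w φ (fun x hx => by
      obtain ⟨a, rfl⟩ := mem_Ln.1 hx
      rw [hψ, map_smul, hw, smul_zero, map_zero])
    exact g2.comm g1 hφ (by rw [hα1]; exact one_ne_zero)

/-- overgroups -/
theorem main (hr : (finrank F K).Prime) (hHL : HL K M) (hk : 2 ≤ finrank K V)
    (hδ : finrank K V = 2 → ∃ δ : K, δ ∉ Set.range (algebraMap F K) ∧ Algebra.norm F δ = 1)
    (hexc : (∃ y : F, y ≠ 0 ∧ y ≠ 1) ∨ 3 ≤ finrank K V ∨ 3 ≤ finrank F K)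
    (hex : ∃ g ∈ M, ¬ ∀ a : K, ∃ b : K, ∀ x, g (a • x) = b • g x) :
    ∀ (u : V) (φ : Dual F V) (h : φ u = 0), tr u φ h ∈ M := by
  obtain ⟨w₀, u₁, c, ω, ρ, ξ, X⟩ := exists_XD hr hHL (Pr_adj hr hHL hk hex)
  have key : ∃ β : Dual F V, β ≠ 0 ∧ (∀ u ∈ (Ln K w₀ : Submodule F V), β u = 0) ∧ RG M w₀ β := by
    by_cases hq : ∃ y : F, y ≠ 0 ∧ y ≠ 1
    · obtain ⟨y, h0, h1⟩ := hq
      refine ⟨ρ, ?_, fun u hu => X.ρU hu, X.rank1a hHL h0 h1⟩
      rintro rfl
      obtain ⟨z, hz⟩ := X.ρne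
      exact hz rfl
    · rcases hexc with h | h | h
      · exact absurd h hq
      · exact X.rank1b hHL h
      · push Not at hq
        exact X.rank1c hHL hq h
  obtain ⟨β, h1, h2, h3⟩ := key
  exact all_of_rank1 hr hHL hk hδ X.w0 h1 h2 h3

end Cfsg.Agent.Lib.ExtSLH94
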