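import Mathlib
import Cfsg.Agent.Lib.ExtSLH94

set_option autoImplicit false
set_option linter.unusedSectionVars false
set_option linter.unusedSimpArgs false
set_option linter.unusedVariables false

/-!
Overgroups of extension field subgroups: the case of dimension four over the field with two elements.
-/

namespace Cfsg.Agent.Lib.ExtSLH94

open Module Cfsg.Agent.Lib.SLMax Cfsg.Agent.Lib.SLUn Cfsg.Agent.Lib.SLBlockH94 Cfsg.Agent.Lib.ExtFldH94

variable {F K V : Type*} [Field F] [Field K] [Algebra F K] [AddCommGroup V] [Module F V] [Module K V]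
  [IsScalarTower F K V] [FiniteDimensional F K] [FiniteDimensional K V] [FiniteDimensional F V]
  {M : Subgroup (V ≃ₗ[F] V)}

/-- linear equivalences over the big field from images of a basis of two vectors -/
theorem exists_lin {w c : V} (hwc : LinearIndependent K ![w, c]) (hk : finrank K V = 2) {w' c' : V}
    (hwc' : LinearIndependent K ![w', c']) : ∃ n : V ≃ₗ[K] V, n w = w' ∧ n c = c' := by
  have e1 : Fintype.card (Fin 2) = finrank K V := by rw [hk]; rfl
  let b := basisOfLinearIndependentOfCardEqFinrank hwc e1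
  let b' := basisOfLinearIndependentOfCardEqFinrank hwc' e1
  refine ⟨b.equiv b' (Equiv.refl _), ?_, ?_⟩
  · have h1 : b 0 = w := by
      rw [coe_basisOfLinearIndependentOfCardEqFinrank]; rfl
    have h2 : b' 0 = w' := by
      rw [coe_basisOfLinearIndependentOfCardEqFinrank]; rfl
    rw [← h1, Basis.equiv_apply, Equiv.refl_apply, h2]
  · have h1 : b 1 = c := by
      rw [coe_basisOfLinearIndependentOfCardEqFinrank]; rfl
    have h2 : b' 1 = c' := by
      rw [coe_basisOfLinearIndependentOfCardEqFinrank]; rfl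
    rw [← h1, Basis.equiv_apply, Equiv.refl_apply, h2]

theorem main222 (h2 : ∀ y : F, y ≠ 0 → y = 1) (hHL : HL K M) (hr : finrank F K = 2) (hk : finrank K V = 2)
    (hex : ∃ g ∈ M, ¬ ∀ a : K, ∃ b : K, ∀ x, g (a • x) = b • g x) :
    ∀ (u : V) (φ : Dual F V) (h : φ u = 0), tr u φ h ∈ M := by
  have hrp : (finrank F K).Prime := by rw [hr]; exact Nat.prime_two
  -- characteristic two
  have h11 : (1 : F) + 1 = 0 := by
    by_contra h
    have := h2 _ h
    exact one_ne_zero (add_eq_left.1 this)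
  have hVV : ∀ x : V, x + x = 0 := by
    intro x
    have : x + x = ((1 : F) + 1) • x := by rw [add_smul, one_smul]
    rw [this, h11, zero_smul]
  have hKK : ∀ x : K, x + x = 0 := by
    intro x
    have : x + x = ((1 : F) + 1) • x := by rw [add_smul, one_smul]
    rw [this, h11, zero_smul]
  have hF : ∀ y : F, y = 0 ∨ y = 1 := fun y => by
    by_cases h : y = 0
    · exact Or.inl h
    · exact Or.inr (h2 y h)
  obtain ⟨ζ, hζ⟩ := exists_not_F (F := F) (K := K) hrp
  have hζ0 : ζ ≠ 0 := by rintro rfl; exact hζ ⟨0, map_zero _⟩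
  have hζ1 : ζ ≠ 1 := by rintro rfl; exact hζ ⟨1, map_one _⟩
  -- elements of K
  have hK : ∀ a : K, ∃ s t : F, a = s • (1 : K) + t • ζ := by
    intro a
    have hli : LinearIndependent F ![(1 : K), ζ] := by
      rw [LinearIndependent.pair_iff]
      intro s t hst
      by_cases ht : t = 0
      · rw [ht, zero_smul, add_zero] at hst
        exact ⟨(smul_eq_zero.1 hst).resolve_right one_ne_zero, ht⟩
      · exfalso
        apply hζ
        refine ⟨s, ?_⟩
        rw [h2 t ht, one_smul, Algebra.smul_def, mul_one] at hst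
        have := eq_neg_of_add_eq_zero_left hst
        rw [this]
        exact neg_eq_of_add_eq_zero_left (hKK ζ)
    have hspan : Submodule.span F (Set.range ![(1 : K), ζ]) = ⊤ :=
      hli.span_eq_top_of_card_eq_finrank (by rw [hr]; rfl)
    have h3 : a ∈ Submodule.span F {(1 : K), ζ} := by
      have : Set.range ![(1 : K), ζ] = {1, ζ} := by simp [Set.pair_comm]
      rw [← this, hspan]; trivial
    obtain ⟨s, t, hst⟩ := Submodule.mem_span_pair.1 h3
    exact ⟨s, t, hst.symm⟩
  have hK4 : ∀ a : K, a = 0 ∨ a = 1 ∨ a = ζ ∨ a = 1 + ζ := by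
    intro a
    obtain ⟨s, t, rfl⟩ := hK a
    rcases hF s with rfl | rfl <;> rcases hF t with rfl | rfl <;> simp
  have hsq : ζ * ζ = 1 + ζ := by
    rcases hK4 (ζ * ζ) with h | h | h | h
    · exact absurd (mul_self_eq_zero.1 h) hζ0
    · exfalso
      have h3 : (ζ + 1) * (ζ + 1) = 0 := by
        have : (ζ + 1) * (ζ + 1) = ζ * ζ + (ζ + ζ) + 1 := by ring
        rw [this, h, hKK ζ, add_zero, hKK]
      have h4 := mul_self_eq_zero.1 h3
      apply hζ1
      have h5 := eq_neg_of_add_eq_zero_left h4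
      rw [h5]; exact neg_eq_of_add_eq_zero_left (hKK 1)
    · exfalso
      apply hζ1
      exact mul_left_cancel₀ hζ0 (by rw [h, mul_one])
    · exact h
  have hζζ : ∀ x : V, ζ • ζ • x = x + ζ • x := by
    intro x
    rw [smul_smul, hsq, add_smul, one_smul]
  have hlinM : ∀ n : V ≃ₗ[K] V, n.restrictScalars F ∈ M := by
    intro n
    apply hHL
    apply h2
    rw [Algebra.norm_ne_zero_iff]
    exact (LinearEquiv.isUnit_det' n).ne_zero
  -- the pair
  have hPr := Pr_adj hrp hHL (by omega : 2 ≤ finrank K V) hex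
  rw [hr] at hPr
  obtain ⟨g, hg, v, v', hv, hv', hfr⟩ := hPr
  obtain ⟨U, hU⟩ : ∃ U : Submodule F V, U = Ln K v := ⟨_, rfl⟩
  obtain ⟨U', hU'⟩ : ∃ U' : Submodule F V, U' = (Ln K v').map (g : V →ₗ[F] V) := ⟨_, rfl⟩
  rw [← hU, ← hU'] at hfr
  have hUr : finrank F U = 2 := by rw [hU, finrank_Ln hv, hr]
  have hU'r : finrank F U' = 2 := by
    rw [hU', ← hr, ← finrank_Ln (F := F) (K := K) hv']
    exact LinearEquiv.finrank_map_eq g _
  obtain ⟨c, hc, hcW⟩ : ∃ x ∈ U', x ∉ U ⊓ U' := Dec.exists_out (by omega)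
  obtain ⟨w, hw, hw0⟩ : ∃ x ∈ U ⊓ U', x ≠ 0 := by
    obtain ⟨x, hx, hx0⟩ := Dec.exists_out (U := U ⊓ U') (W := (⊥ : Submodule F V)) (by
      rw [finrank_bot, hfr]; omega)
    exact ⟨x, hx, fun h => hx0 (by rw [h]; exact Submodule.zero_mem _)⟩
  have hUw : U = Ln K w := by
    rw [hU]; exact (Ln_eq (by rw [← hU]; exact hw.1) hw0).symm
  have hcU : c ∉ U := fun h => hcW ⟨h, hc⟩
  have hgU' : ∀ y, y ∈ U' ↔ g.symm y ∈ (Ln K v' : Submodule F V) := by
    intro y
    rw [hU']
    constructor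
    · rintro ⟨x, hx, rfl⟩
      show g.symm (g x) ∈ _
      rw [LinearEquiv.symm_apply_apply]; exact hx
    · intro h
      exact ⟨_, h, LinearEquiv.apply_symm_apply g y⟩
  -- independence
  have hind : LinearIndependent K ![w, c] := by
    rw [LinearIndependent.pair_iff]
    intro a b hab
    by_cases hb : b = 0
    · rw [hb, zero_smul, add_zero] at hab
      exact ⟨(smul_eq_zero.1 hab).resolve_right hw0, hb⟩
    · exfalso
      apply hcU
      rw [hUw]
      refine mem_Ln.2 ⟨-(b⁻¹ * a), ?_⟩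
      have h3 := congrArg (fun z => b⁻¹ • z) hab
      simp only [smul_add, smul_smul, inv_mul_cancel₀ hb, one_smul, smul_zero] at h3
      rw [neg_smul]
      exact (neg_eq_of_add_eq_zero_right h3).symm
  have hzw : ζ • w ∉ U' := by
    intro h
    have h3 : U ≤ U' := by
      rw [hUw]
      intro x hx
      obtain ⟨a, rfl⟩ := mem_Ln.1 hx
      obtain ⟨s, t, rfl⟩ := hK a
      rw [add_smul, smul_assoc, smul_assoc, one_smul]
      exact Submodule.add_mem _ (Submodule.smul_mem _ _ hw.2) (Submodule.smul_mem _ _ h)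
    rw [inf_eq_left.2 h3] at hfr
    omega
  obtain ⟨φ, hφ1, hφ0⟩ := exists_dual1 (F := F) (K := K) (v := v') (x := g.symm (ζ • w))
    (fun h => hzw ((hgU' _).2 h))
  have hφ0' : ∀ x ∈ (Ln K v' : Submodule F V), φ x = 0 := by
    intro x hx
    obtain ⟨a, rfl⟩ := mem_Ln.1 hx
    rw [map_smul, hφ0, smul_zero]
  have hφk : ∀ x, φ x = 0 → x ∈ (Ln K v' : Submodule F V) := by
    intro x hx
    have h3 : Submodule.span K {v'} = LinearMap.ker φ := by
      apply Submodule.eq_of_le_of_finrank_le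
      · rw [Submodule.span_singleton_le_iff_mem, LinearMap.mem_ker, hφ0]
      · rw [finrank_span_singleton hv']
        have h4 := LinearMap.finrank_range_add_finrank_ker φ
        have h5 : 0 < finrank K (LinearMap.range φ) := by
          apply Nat.pos_of_ne_zero
          intro h6
          rw [Submodule.finrank_eq_zero, LinearMap.range_eq_bot] at h6
          rw [h6] at hφ1
          exact zero_ne_one hφ1
        omega
    show x ∈ Submodule.span K {v'}
    rw [h3, LinearMap.mem_ker, hx]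
  obtain ⟨κ, hκ⟩ : ∃ κ, κ = φ (g.symm (ζ • c)) := ⟨_, rfl⟩
  have hκF : κ ∉ Set.range (algebraMap F K) := by
    rintro ⟨s, hs⟩
    have h3 : ζ • (c - s • w) ∈ U' := by
      rw [hgU']
      apply hφk
      rw [smul_sub, map_sub, map_sub, ← hκ, smul_comm ζ s w, LinearEquiv.map_smul, ← algebraMap_smul K s, φ.map_smul,
        hφ1, smul_eq_mul, mul_one, hs, sub_self]
    have h4 : c - s • w ∈ U' := Submodule.sub_mem _ hc (Submodule.smul_mem _ _ hw.2)
    have h5 : c - s • w ≠ 0 := by
      intro h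
      apply hcU
      rw [sub_eq_zero.1 h]
      exact Submodule.smul_mem _ _ hw.1
    have h6 : (Ln K (c - s • w) : Submodule F V) ≤ U' := by
      intro x hx
      obtain ⟨a, rfl⟩ := mem_Ln.1 hx
      obtain ⟨s', t', rfl⟩ := hK a
      rw [add_smul, smul_assoc, smul_assoc, one_smul]
      exact Submodule.add_mem _ (Submodule.smul_mem _ _ h4) (Submodule.smul_mem _ _ h3)
    have h7 : (Ln K (c - s • w) : Submodule F V) = U' :=
      Submodule.eq_of_le_of_finrank_eq h6 (by rw [finrank_Ln h5, hr, hU'r])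
    have h8 := hw.2
    rw [← h7] at h8
    have h9 := Ln_eq h8 hw0
    apply hcU
    rw [hUw, h9]
    have h10 : (c - s • w) + s • w ∈ (Ln K (c - s • w) : Submodule F V) :=
      Submodule.add_mem _ (self_mem_Ln _) (Submodule.smul_mem _ _ h8)
    rwa [sub_add_cancel] at h10
  have hκκ : κ * κ = 1 + κ := by
    rcases hK4 κ with h | h | h | h
    · exact absurd ⟨0, by rw [h, map_zero]⟩ hκF
    · exact absurd ⟨1, by rw [h, map_one]⟩ hκF
    · rw [h, hsq]
    · rw [h]
      have : (1 + ζ) * (1 + ζ) = 1 + (ζ + ζ) + ζ * ζ := by ring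
      rw [this, hsq, hKK ζ]; ring
  -- the maps
  obtain ⟨J, hJ⟩ : ∃ J : V → V, ∀ t, J t = g (κ • g.symm t) := ⟨fun t => g (κ • g.symm t), fun t => rfl⟩
  have hJU : ∀ t ∈ U', J t ∈ U' := by
    intro t ht
    rw [hJ, hgU', LinearEquiv.symm_apply_apply]
    exact Ln_smul _ ((hgU' t).1 ht)
  have hJJ : ∀ t, J (J t) = t + J t := by
    intro t
    rw [hJ (J t), hJ t, LinearEquiv.symm_apply_apply, smul_smul, hκκ, add_smul, one_smul, map_add,
      LinearEquiv.apply_symm_apply]
  have hJ0 : ∀ t, t ≠ 0 → J t ≠ 0 := by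
    intro t ht h
    rw [hJ, LinearEquiv.map_eq_zero_iff] at h
    rcases smul_eq_zero.1 h with h3 | h3
    · exact hκF ⟨0, by rw [h3, map_zero]⟩
    · rw [LinearEquiv.map_eq_zero_iff] at h3
      exact ht h3
  have hJ1 : ∀ t, t ≠ 0 → J t ≠ t := by
    intro t ht h
    have := hJJ t
    rw [h, h, hVV] at this
    exact ht this
  have hU'4 : ∀ y ∈ U', y = 0 ∨ y = w ∨ y = c ∨ y = w + c := by
    intro y hy
    obtain ⟨θ, hθ1, hθ0⟩ := exists_fun hcW
    have h3 := hyper (W := U ⊓ U') inf_le_right (by omega) hc hcW hθ1 hθ0 hy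
    have h4 : U ⊓ U' = Submodule.span F {w} := by
      symm
      apply Submodule.eq_of_le_of_finrank_eq
      · rw [Submodule.span_singleton_le_iff_mem]; exact hw
      · rw [finrank_span_singleton hw0, hfr]
    rw [h4] at h3
    obtain ⟨s, hs⟩ := Submodule.mem_span_singleton.1 h3
    have h5 : y = s • w + θ y • c := by rw [hs]; abel
    rw [h5]
    rcases hF s with rfl | rfl <;> rcases hF (θ y) with h6 | h6 <;> rw [h6] <;> simp
  -- the elements
  have hX : ∀ t ∈ U', ∃ m ∈ M, m w = w ∧ m c = c ∧ m (ζ • w) = ζ • w + t ∧ m (ζ • c) = ζ • c + J t := by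
    intro t ht
    have ht' := (hgU' t).1 ht
    have h3 : φ (g.symm t) = 0 := hφ0' _ ht'
    refine ⟨g * kt (g.symm t) φ h3 * g⁻¹, mul_mem (mul_mem hg (kt_mem hHL _ _ _)) (inv_mem hg), ?_⟩
    have h4 : ∀ z, (g * kt (g.symm t) φ h3 * g⁻¹ : V ≃ₗ[F] V) z = z + g (φ (g.symm z) • g.symm t) := by
      intro z
      rw [LinearEquiv.mul_apply, LinearEquiv.mul_apply, kt_apply, map_add]
      have e1 : g (g⁻¹ z) = z := by rw [← LinearEquiv.mul_apply, mul_inv_cancel]; rfl
      have e2 : g⁻¹ z = g.symm z := rfl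
      rw [e1, e2]
    refine ⟨?_, ?_, ?_, ?_⟩
    · rw [h4, hφ0' _ ((hgU' w).1 hw.2), zero_smul, map_zero, add_zero]
    · rw [h4, hφ0' _ ((hgU' c).1 hc), zero_smul, map_zero, add_zero]
    · rw [h4, hφ1, one_smul, LinearEquiv.apply_symm_apply]
    · rw [h4, ← hκ, ← hJ]
  -- a basis
  have hbas : ∃ b : Basis (Fin 4) F V, b 0 = w ∧ b 1 = ζ • w ∧ b 2 = c ∧ b 3 = ζ • c := by
    have hsp : ⊤ ≤ Submodule.span F (Set.range ![w, ζ • w, c, ζ • c]) := by
      intro z _
      have e1 : Fintype.card (Fin 2) = finrank K V := by rw [hk]; rfl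
      have h3 : Submodule.span K (Set.range ![w, c]) = ⊤ := hind.span_eq_top_of_card_eq_finrank e1
      have h4 : z ∈ Submodule.span K {w, c} := by
        have : Set.range ![w, c] = {w, c} := by simp [Set.pair_comm]
        rw [← this, h3]; trivial
      obtain ⟨a, b, rfl⟩ := Submodule.mem_span_pair.1 h4
      obtain ⟨s, t, rfl⟩ := hK a
      obtain ⟨s', t', rfl⟩ := hK b
      have hm : ∀ i, (![w, ζ • w, c, ζ • c] : Fin 4 → V) i ∈ Submodule.span F (Set.range ![w, ζ • w, c, ζ • c]) :=
        fun i => Submodule.subset_span ⟨i, rfl⟩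
      rw [add_smul, add_smul, smul_assoc, smul_assoc, smul_assoc, smul_assoc, one_smul, one_smul]
      exact Submodule.add_mem _ (Submodule.add_mem _ (Submodule.smul_mem _ _ (hm 0)) (Submodule.smul_mem _ _ (hm 1)))
        (Submodule.add_mem _ (Submodule.smul_mem _ _ (hm 2)) (Submodule.smul_mem _ _ (hm 3)))
    have hfr4 : finrank F V = 4 := by
      rw [← Module.finrank_mul_finrank F K V, hr, hk]
    have hcard : Fintype.card (Fin 4) = finrank F V := by rw [hfr4]; rfl
    refine ⟨basisOfTopLeSpanOfCardEqFinrank _ hsp hcard, ?_, ?_, ?_, ?_⟩ <;>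
      rw [coe_basisOfTopLeSpanOfCardEqFinrank] <;> rfl
  obtain ⟨b, hb0, hb1, hb2, hb3⟩ := hbas
  have hfun : ∀ f : Fin 4 → F, ∃ β : Dual F V, β w = f 0 ∧ β (ζ • w) = f 1 ∧ β c = f 2 ∧ β (ζ • c) = f 3 := by
    intro f
    refine ⟨b.constr F f, ?_, ?_, ?_, ?_⟩
    · rw [← hb0, Basis.constr_basis]
    · rw [← hb1, Basis.constr_basis]
    · rw [← hb2, Basis.constr_basis]
    · rw [← hb3, Basis.constr_basis]
  have hext : ∀ (m : V ≃ₗ[F] V) (β : Dual F V) (y : V), m w = w + β w • y → m (ζ • w) = ζ • w + β (ζ • w) • y →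
      m c = c + β c • y → m (ζ • c) = ζ • c + β (ζ • c) • y → ∀ x, m x = x + β x • y := by
    intro m β y e0 e1 e2 e3
    have h3 : (m : V →ₗ[F] V) = LinearMap.id + β.smulRight y := by
      apply b.ext
      intro i
      fin_cases i
      · show m (b 0) = b 0 + β (b 0) • y
        rw [hb0]; exact e0
      · show m (b 1) = b 1 + β (b 1) • y
        rw [hb1]; exact e1
      · show m (b 2) = b 2 + β (b 2) • y
        rw [hb2]; exact e2
      · show m (b 3) = b 3 + β (b 3) • y
        rw [hb3]; exact e3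
    intro x
    exact congrArg (fun f : V →ₗ[F] V => f x) h3
  have hRG : ∀ (m : V ≃ₗ[F] V) (β : Dual F V) (y : V), m ∈ M → β y = 0 → (∀ x, m x = x + β x • y) → RG M y β := by
    intro m β y hm hβ h
    refine ⟨hβ, fun s => ?_⟩
    rcases hF s with rfl | rfl
    · exact ⟨1, one_mem _, fun x => by simp⟩
    · exact ⟨m, hm, fun x => by rw [h, one_mul]⟩
  have hδ : finrank K V = 2 → ∃ δ : K, δ ∉ Set.range (algebraMap F K) ∧ Algebra.norm F δ = 1 := fun _ =>
    ⟨ζ, hζ, h2 _ (by rw [Algebra.norm_ne_zero_iff]; exact hζ0)⟩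
  have hsub : ∀ x y : V, x - y = x + y := by
    intro x y
    rw [sub_eq_add_neg]
    congr 1
    exact neg_eq_of_add_eq_zero_left (hVV y)
  have hwne : J w = c ∨ J w = w + c := by
    rcases hU'4 _ (hJU w hw.2) with h | h | h | h
    · exact absurd h (hJ0 w hw0)
    · exact absurd h (hJ1 w hw0)
    · exact Or.inl h
    · exact Or.inr h
  have hkillLn : ∀ (β : Dual F V) (y : V), β y = 0 → β (ζ • y) = 0 → ∀ u ∈ (Ln K y : Submodule F V), β u = 0 := by
    intro β y h3 h4 u hu
    obtain ⟨a, rfl⟩ := mem_Ln.1 hu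
    obtain ⟨s, t, rfl⟩ := hK a
    rw [add_smul, smul_assoc, smul_assoc, one_smul, map_add, map_smul, map_smul, h3, h4, smul_zero, smul_zero,
      add_zero]
  rcases hwne with hJw | hJw
  · -- J w = c
    have hJc : J c = w + c := by
      have := hJJ w
      rwa [hJw] at this
    obtain ⟨X, hXM, X0, X2, X1, X3⟩ := hX c hc
    rw [hJc] at X3
    obtain ⟨n, n0, n2⟩ := exists_lin hind hk (w' := ζ • w) (c' := ζ • w + ζ • c) (by
      rw [LinearIndependent.pair_iff] at hind ⊢
      intro s t hst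
      have h3 : ((s + t) * ζ) • w + (t * ζ) • c = 0 := by
        rw [← hst]; module
      obtain ⟨h4, h5⟩ := hind _ _ h3
      have h6 := (mul_eq_zero.1 h5).resolve_right hζ0
      rw [h6, add_zero] at h4
      exact ⟨(mul_eq_zero.1 h4).resolve_right hζ0, h6⟩)
    obtain ⟨n', n0', n2'⟩ := exists_lin hind hk (w' := w + ζ • w + c) (c' := ζ • c) (by
      rw [LinearIndependent.pair_iff] at hind ⊢
      intro s t hst
      have h3 : (s * (1 + ζ)) • w + (s + t * ζ) • c = 0 := by
        rw [← hst]; module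
      obtain ⟨h4, h5⟩ := hind _ _ h3
      have h6 : (1 + ζ) ≠ 0 := by
        intro h7
        rw [← hsq] at h7
        exact hζ0 (mul_self_eq_zero.1 h7)
      have h7 := (mul_eq_zero.1 h4).resolve_right h6
      rw [h7, zero_add] at h5
      exact ⟨h7, (mul_eq_zero.1 h5).resolve_right hζ0⟩)
    have n1 : n (ζ • w) = w + ζ • w := by rw [map_smul, n0, hζζ]
    have n3 : n (ζ • c) = w + ζ • w + c + ζ • c := by
      rw [map_smul, n2, smul_add, hζζ, hζζ]; abel
    have n1' : n' (ζ • w) = w + ζ • c := by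
      rw [map_smul, n0', smul_add, smul_add, hζζ]
      have : ζ • w + (w + ζ • w) + ζ • c = w + (ζ • w + ζ • w) + ζ • c := by abel
      rw [this, hVV, add_zero]
    have n3' : n' (ζ • c) = c + ζ • c := by rw [map_smul, n2', hζζ]
    obtain ⟨W, hW⟩ : ∃ W : V ≃ₗ[F] V, W = X * (n.restrictScalars F) * X * (n'.restrictScalars F) := ⟨_, rfl⟩
    have hWM : W ∈ M := by
      rw [hW]; exact mul_mem (mul_mem (mul_mem hXM (hlinM n)) hXM) (hlinM n')
    have hWx : ∀ x, W x = X (n (X (n' x))) := fun x => by rw [hW]; rfl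
    have W0 : W w = w := by
      rw [hWx, n0', map_add X, map_add X, X0, X1, X2]
      have e1 : w + (ζ • w + c) + c = w + ζ • w + (c + c) := by abel
      rw [e1, hVV, add_zero, map_add n, n0, n1]
      have e2 : ζ • w + (w + ζ • w) = w + (ζ • w + ζ • w) := by abel
      rw [e2, hVV, add_zero, X0]
    have W1 : W (ζ • w) = w + c := by
      rw [hWx, n1', map_add X, X0, X3]
      have e1 : w + (ζ • c + (w + c)) = (w + w) + (c + ζ • c) := by abel
      rw [e1, hVV, zero_add, map_add n, n2, n3]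
      have e2 : ζ • w + ζ • c + (w + ζ • w + c + ζ • c) = (ζ • w + ζ • w) + (ζ • c + ζ • c) + (w + c) := by abel
      rw [e2, hVV, hVV, zero_add, zero_add, map_add X, X0, X2]
    have W2 : W c = w + ζ • w := by
      rw [hWx, n2', X3, map_add n, map_add n, n3, n0, n2]
      have e1 : w + ζ • w + c + ζ • c + (ζ • w + (ζ • w + ζ • c)) =
        (w + ζ • w + c) + (ζ • w + ζ • w) + (ζ • c + ζ • c) := by abel
      rw [e1, hVV, hVV, add_zero, add_zero, map_add X, map_add X, X0, X1, X2]
      have e2 : w + (ζ • w + c) + c = w + ζ • w + (c + c) := by abel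
      rw [e2, hVV, add_zero]
    have W3 : W (ζ • c) = ζ • c := by
      rw [hWx, n3', map_add X, X2, X3]
      have e1 : c + (ζ • c + (w + c)) = (c + c) + (w + ζ • c) := by abel
      rw [e1, hVV, zero_add, map_add n, n0, n3]
      have e2 : ζ • w + (w + ζ • w + c + ζ • c) = (ζ • w + ζ • w) + (w + c + ζ • c) := by abel
      rw [e2, hVV, zero_add, map_add X, map_add X, X0, X2, X3]
      have e3 : w + c + (ζ • c + (w + c)) = (w + w) + (c + c) + ζ • c := by abel
      rw [e3, hVV, hVV, zero_add, zero_add]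
    obtain ⟨β, β0, β1, β2, β3⟩ := hfun ![0, 1, 1, 0]
    have β0' : β w = 0 := β0
    have β1' : β (ζ • w) = 1 := β1
    have β2' : β c = 1 := β2
    have β3' : β (ζ • c) = 0 := β3
    have hy1 : β (w + ζ • w + c) = 0 := by
      rw [map_add, map_add, β0', β1', β2', zero_add, h11]
    have hy2 : β (ζ • (w + ζ • w + c)) = 0 := by
      rw [smul_add, smul_add, hζζ]
      have : ζ • w + (w + ζ • w) + ζ • c = (ζ • w + ζ • w) + (w + ζ • c) := by abel
      rw [this, hVV, zero_add, map_add, β0', β3', zero_add]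
    have hy0 : w + ζ • w + c ≠ 0 := by
      intro h
      have h3 := congrArg (fun x => n'.symm x) h
      simp only [← n0', LinearEquiv.symm_apply_apply, map_zero] at h3
      exact hw0 h3
    have hWβ := hext W β (w + ζ • w + c) (by rw [W0, β0', zero_smul, add_zero])
      (by
        rw [W1, β1', one_smul]
        have : ζ • w + (w + ζ • w + c) = (ζ • w + ζ • w) + (w + c) := by abel
        rw [this, hVV, zero_add])
      (by
        rw [W2, β2', one_smul]
        have : c + (w + ζ • w + c) = (c + c) + (w + ζ • w) := by abel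
        rw [this, hVV, zero_add])
      (by rw [W3, β3', zero_smul, add_zero])
    refine all_of_rank1 hrp hHL (by omega) hδ hy0 ?_ (hkillLn β _ hy1 hy2) (hRG W β _ hWM hy1 hWβ)
    rintro rfl
    exact zero_ne_one β1'
  · -- J w = w + c
    obtain ⟨X, hXM, X0, X2, X1, X3⟩ := hX w hw.2
    rw [hJw] at X3
    obtain ⟨n, n0, n2⟩ := exists_lin hind hk (w' := w) (c' := ζ • c) (by
      rw [LinearIndependent.pair_iff] at hind ⊢
      intro s t hst
      rw [smul_smul] at hst
      obtain ⟨h4, h5⟩ := hind _ _ hst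
      exact ⟨h4, (mul_eq_zero.1 h5).resolve_right hζ0⟩)
    have n1 : n (ζ • w) = ζ • w := by rw [map_smul, n0]
    have n3 : n (ζ • c) = c + ζ • c := by rw [map_smul, n2, hζζ]
    obtain ⟨W, hW⟩ : ∃ W : V ≃ₗ[F] V, W = X * (n.restrictScalars F) * X * (n.restrictScalars F) := ⟨_, rfl⟩
    have hWM : W ∈ M := by
      rw [hW]; exact mul_mem (mul_mem (mul_mem hXM (hlinM n)) hXM) (hlinM n)
    have hWx : ∀ x, W x = X (n (X (n x))) := fun x => by rw [hW]; rfl
    have W0 : W w = w := by rw [hWx, n0, X0, n0, X0]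
    have W1 : W (ζ • w) = ζ • w := by
      rw [hWx, n1, X1, map_add n, n1, n0, map_add X, X1, X0, add_assoc, hVV, add_zero]
    have W2 : W c = w + c := by
      rw [hWx, n2, X3, map_add n, map_add n, n3, n0, n2]
      have e1 : c + ζ • c + (w + ζ • c) = (ζ • c + ζ • c) + (w + c) := by abel
      rw [e1, hVV, zero_add, map_add X, X0, X2]
    have W3 : W (ζ • c) = ζ • c := by
      rw [hWx, n3, map_add X, X2, X3]
      have e1 : c + (ζ • c + (w + c)) = (c + c) + (w + ζ • c) := by abel
      rw [e1, hVV, zero_add, map_add n, n0, n3, map_add X, map_add X, X0, X2, X3]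
      have e2 : w + (c + (ζ • c + (w + c))) = (w + w) + (c + c) + ζ • c := by abel
      rw [e2, hVV, hVV, zero_add, zero_add]
    obtain ⟨β, β0, β1, β2, β3⟩ := hfun ![0, 0, 1, 0]
    have β0' : β w = 0 := β0
    have β1' : β (ζ • w) = 0 := β1
    have β2' : β c = 1 := β2
    have β3' : β (ζ • c) = 0 := β3
    have hWβ := hext W β w (by rw [W0, β0', zero_smul, add_zero]) (by rw [W1, β1', zero_smul, add_zero])
      (by rw [W2, β2', one_smul, add_comm]) (by rw [W3, β3', zero_smul, add_zero])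
    refine all_of_rank1 hrp hHL (by omega) hδ hw0 ?_ (hkillLn β _ β0' β1') (hRG W β _ hWM β0' hWβ)
    rintro rfl
    exact zero_ne_one β2'

end Cfsg.Agent.Lib.ExtSLH94
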