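import Mathlib
import Cfsg.Prelude.Def_GeometricClasses
import Cfsg.Agent.Lib.GeoBridge
import Cfsg.Agent.Lib.ExtSL2H94

set_option autoImplicit false
set_option linter.unusedSectionVars false
set_option linter.unusedSimpArgs false
set_option linter.unusedVariables false

/-!
Bridges for normalisers of field subalgebras.
-/

namespace Cfsg.Agent.Lib.ExtBrH94

open Module Cfsg Cfsg.Geo Cfsg.Agent.Lib.GeoBridge Cfsg.Agent.Lib.SLMax Cfsg.Agent.Lib.ExtSLH94
open scoped MatrixGroups Matrix

/-- elements of norm one outside the small field -/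
theorem exists_norm_one (F K : Type*) [Field F] [Finite F] [Field K] [Finite K] [Algebra F K]
    (hr : 2 ≤ finrank F K) : ∃ δ : K, δ ∉ Set.range (algebraMap F K) ∧ Algebra.norm F δ = 1 := by
  classical
  have := Fintype.ofFinite F
  have := Fintype.ofFinite K
  obtain ⟨x, hx⟩ := IsCyclic.exists_generator (α := Kˣ)
  have hord : orderOf x = Fintype.card K - 1 := by
    rw [orderOf_eq_card_of_forall_mem_zpowers hx, Nat.card_eq_fintype_card, Fintype.card_units]
  have hcard : Fintype.card K = Fintype.card F ^ finrank F K := Module.card_eq_pow_finrank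
  have hq : 1 < Fintype.card F := Fintype.one_lt_card
  refine ⟨((x ^ (Fintype.card F - 1) : Kˣ) : K), ?_, ?_⟩
  · rintro ⟨s, hs⟩
    have hs0 : s ≠ 0 := by
      rintro rfl
      rw [map_zero] at hs
      exact (x ^ (Fintype.card F - 1)).ne_zero hs.symm
    have h1 : s ^ (Fintype.card F - 1) = 1 := FiniteField.pow_card_sub_one_eq_one s hs0
    have h2 : (x ^ (Fintype.card F - 1)) ^ (Fintype.card F - 1) = 1 := by
      apply Units.ext
      rw [Units.val_pow_eq_pow_val, ← hs, ← map_pow, h1, map_one, Units.val_one]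
    rw [← pow_mul] at h2
    have h3 := orderOf_le_of_pow_eq_one (Nat.mul_pos (by omega) (by omega)) h2
    rw [hord, hcard] at h3
    have h4 : Fintype.card F ^ 2 ≤ Fintype.card F ^ finrank F K := Nat.pow_le_pow_right (by omega) hr
    obtain ⟨q, hq'⟩ : ∃ q, Fintype.card F = q + 2 := ⟨Fintype.card F - 2, by omega⟩
    rw [hq'] at h3 h4
    have h5 : (q + 2 - 1) * (q + 2 - 1) = q * q + 2 * q + 1 := by
      have : q + 2 - 1 = q + 1 := by omega
      rw [this]; ring
    have h6 : (q + 2) ^ 2 = q * q + 4 * q + 4 := by ring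
    rw [h5] at h3
    rw [h6] at h4
    omega
  · rw [Units.val_pow_eq_pow_val, map_pow]
    apply FiniteField.pow_card_sub_one_eq_one
    rw [Algebra.norm_ne_zero_iff]
    exact x.ne_zero

/-- overgroups, algebra homomorphism version -/
theorem main_alg (F K V : Type*) [Field F] [Finite F] [Field K] [Algebra F K] [FiniteDimensional F K]
    [AddCommGroup V] [Module F V] [FiniteDimensional F V] (φ : K →ₐ[F] Module.End F V)
    (hr : (finrank F K).Prime) (hlt : finrank F K < finrank F V) {M : Subgroup (V ≃ₗ[F] V)}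
    (hN : ∀ g : V ≃ₗ[F] V, LinearMap.det (g : V →ₗ[F] V) = 1 → (∀ a x, g (φ a x) = φ a (g x)) → g ∈ M)
    (hex : ∃ g ∈ M, ¬ ∀ a, ∃ b, ∀ x, g (φ a x) = φ b (g x)) :
    ∀ (u : V) (φ : Dual F V) (h : φ u = 0), tr u φ h ∈ M := by
  let _ : Module K V := Module.compHom V φ.toRingHom
  have : IsScalarTower F K V := ⟨fun a x v => by
    show φ (a • x) v = a • φ x v
    rw [map_smul]; rfl⟩
  have : FiniteDimensional K V := Module.Finite.of_restrictScalars_finite F K V
  have hK : Finite K := Module.finite_of_finite F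
  have hmul : finrank F K * finrank K V = finrank F V := Module.finrank_mul_finrank F K V
  have hk : 2 ≤ finrank K V := by
    by_contra hcon
    have h1 : finrank K V ≤ 1 := by omega
    have h2 : finrank F K * finrank K V ≤ finrank F K * 1 := Nat.mul_le_mul_left _ h1
    omega
  have hHL : HL K M := by
    intro g hg
    apply hN
    · have h1 : ((g.restrictScalars F : V ≃ₗ[F] V) : V →ₗ[F] V) = (g : V →ₗ[K] V).restrictScalars F := rfl
      rw [h1, LinearMap.det_restrictScalars, hg]
    · intro a x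
      exact g.map_smul a x
  have hex' : ∃ g ∈ M, ¬ ∀ a : K, ∃ b : K, ∀ x, g (a • x) = b • g x := hex
  have hδ : finrank K V = 2 → ∃ δ : K, δ ∉ Set.range (algebraMap F K) ∧ Algebra.norm F δ = 1 :=
    fun _ => exists_norm_one F K hr.two_le
  by_cases h1 : (∃ y : F, y ≠ 0 ∧ y ≠ 1) ∨ 3 ≤ finrank K V ∨ 3 ≤ finrank F K
  · exact main hr hHL hk hδ h1 hex'
  · push Not at h1
    obtain ⟨h2, h3, h4⟩ := h1
    have h5 := hr.two_le
    exact main222 h2 hHL (by omega) (by omega) hex'

/-- linear maps over the big field with given determinant over the small field -/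
theorem exists_det (F K V : Type*) [Field F] [Finite F] [Field K] [Algebra F K] [FiniteDimensional F K]
    [AddCommGroup V] [Module F V] [FiniteDimensional F V] (φ : K →ₐ[F] Module.End F V)
    (hV : 0 < finrank F V) {δ : F} (hδ : δ ≠ 0) :
    ∃ n : V ≃ₗ[F] V, LinearMap.det (n : V →ₗ[F] V) = δ ∧ ∀ a x, n (φ a x) = φ a (n x) := by
  let _ : Module K V := Module.compHom V φ.toRingHom
  have : IsScalarTower F K V := ⟨fun a x v => by
    show φ (a • x) v = a • φ x v
    rw [map_smul]; rfl⟩
  have : FiniteDimensional K V := Module.Finite.of_restrictScalars_finite F K V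
  have hK : Finite K := Module.finite_of_finite F
  obtain ⟨x, hx⟩ := (Module.finrank_pos_iff_exists_ne_zero).1 hV
  obtain ⟨α, hα, -⟩ := Cfsg.Agent.Lib.ExtFldH94.exists_dual (K := K) (W := (⊥ : Submodule K V)) (x := x)
    (by rwa [Submodule.mem_bot])
  obtain ⟨κ, hκ⟩ := FiniteField.norm_surjective F K δ
  have hκ0 : κ ≠ 0 := by rintro rfl; rw [Algebra.norm_zero] at hκ; exact hδ hκ.symm
  obtain ⟨n, hn, hd⟩ := exists_homology hα hκ0
  refine ⟨n.restrictScalars F, ?_, fun a x => n.map_smul a x⟩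
  have h1 : ((n.restrictScalars F : V ≃ₗ[F] V) : V →ₗ[F] V) = (n : V →ₗ[K] V).restrictScalars F := rfl
  rw [h1, LinearMap.det_restrictScalars, hd, hκ]

/-- transvections over the small field do not normalise the big field -/
theorem tr_not (F K V : Type*) [Field F] [Field K] [Algebra F K] [FiniteDimensional F K]
    [AddCommGroup V] [Module F V] [FiniteDimensional F V] (φ : K →ₐ[F] Module.End F V)
    (hr : 2 ≤ finrank F K) (hlt : 3 ≤ finrank F V) {u : V} (hu : u ≠ 0) {β : Dual F V} (hβ : β ≠ 0)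
    (h : β u = 0) : ¬ ∀ a, ∃ b, ∀ x, tr u β h (φ a x) = φ b (tr u β h x) := by
  let _ : Module K V := Module.compHom V φ.toRingHom
  have : IsScalarTower F K V := ⟨fun a x v => by
    show φ (a • x) v = a • φ x v
    rw [map_smul]; rfl⟩
  intro hcon
  have hcon' : ∀ a : K, ∃ b : K, ∀ x, tr u β h (a • x) = b • tr u β h x := hcon
  obtain ⟨a, ha⟩ : ∃ κ : K, κ ∉ Set.range (algebraMap F K) := by
    by_contra hcon
    push Not at hcon
    have h1 : finrank F K ≤ 1 := by
      refine finrank_le_one (1 : K) (fun w => ?_)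
      obtain ⟨c, hc⟩ := hcon w
      exact ⟨c, by rw [← hc, Algebra.smul_def, mul_one]⟩
    omega
  obtain ⟨b, hb⟩ := hcon' a
  -- a common kernel vector
  obtain ⟨γ, hγ⟩ : ∃ γ : Dual F V, ∀ x, γ x = β (a • x) := ⟨β ∘ₗ (φ a), fun x => rfl⟩
  obtain ⟨x, hx0, hx1, hx2⟩ : ∃ x : V, x ≠ 0 ∧ β x = 0 ∧ γ x = 0 := by
    have h1 := LinearMap.finrank_range_add_finrank_ker (β.prod γ)
    have h2 : finrank F (LinearMap.range (β.prod γ)) ≤ 2 := by
      have := Submodule.finrank_le (LinearMap.range (β.prod γ))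
      rwa [Module.finrank_prod, finrank_self] at this
    have h3 : 0 < finrank F (LinearMap.ker (β.prod γ)) := by omega
    obtain ⟨x, hx⟩ := (Module.finrank_pos_iff_exists_ne_zero).1 h3
    have h4 := x.2
    rw [LinearMap.mem_ker, LinearMap.prod_apply, Prod.ext_iff] at h4
    exact ⟨x.1, fun h => hx (Subtype.ext h), h4.1, h4.2⟩
  have h1 := hb x
  rw [tr_apply, tr_apply, ← hγ, hx1, hx2, zero_smul, add_zero, add_zero] at h1
  have hab : a = b := by
    have h2 : (a - b) • x = 0 := by rw [sub_smul, h1, sub_self]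
    rcases smul_eq_zero.1 h2 with h3 | h3
    · exact sub_eq_zero.1 h3
    · exact absurd h3 hx0
  obtain ⟨y, hy⟩ : ∃ y, β y ≠ 0 := by
    by_contra hcon
    push Not at hcon
    exact hβ (LinearMap.ext hcon)
  have h2 := hb y
  rw [tr_apply, tr_apply, ← hab, smul_add, add_right_inj, smul_comm a (β y) u] at h2
  apply ha
  refine ⟨(β y)⁻¹ * β (a • y), ?_⟩
  have h3 : (algebraMap F K ((β y)⁻¹ * β (a • y)) - a) • u = 0 := by
    rw [sub_smul, algebraMap_smul, mul_smul, h2, smul_smul, inv_mul_cancel₀ hy, one_smul, sub_self]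
  rcases smul_eq_zero.1 h3 with h4 | h4
  · exact sub_eq_zero.1 h4
  · exact absurd h4 hu

variable {ι : Type} [Fintype ι] [DecidableEq ι] {F : Type*} [Field F]

/-- the action of a subalgebra of the matrix algebra -/
noncomputable def rho (K : Subalgebra F (Matrix ι ι F)) : K →ₐ[F] Module.End F (ι → F) :=
  ((Matrix.toLinAlgEquiv' (R := F) (n := ι)).toAlgHom.comp K.val)

theorem rho_apply (K : Subalgebra F (Matrix ι ι F)) (a : K) (x : ι → F) :
    rho K a x = (a : Matrix ι ι F) *ᵥ x := rfl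

theorem isField_of [Nonempty ι] {K : Subalgebra F (Matrix ι ι F)} {r : ℕ} (hK : IsFieldSubalgebra r K) :
    IsField K :=
  { exists_pair_ne := ⟨0, 1, fun h => zero_ne_one (congrArg Subtype.val h)⟩
    mul_comm := fun a b => Subtype.ext (hK.comm a a.2 b b.2)
    mul_inv_cancel := fun {a} ha => by
      obtain ⟨y, hy, hxy⟩ := hK.inv a a.2 (fun h => ha (Subtype.ext h))
      exact ⟨⟨y, hy⟩, Subtype.ext hxy⟩ }

/-- normalisers of subalgebras -/
theorem mem_normalizer_iff (K : Subalgebra F (Matrix ι ι F)) (g : GL ι F) :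
    g ∈ subalgebraNormalizer K ↔ ∀ a : K, ∃ b : K, ∀ x, le g (rho K a x) = rho K b (le g x) := by
  have hgg : (g : Matrix ι ι F) * ((g⁻¹ : GL ι F) : Matrix ι ι F) = 1 := by
    rw [← Units.val_mul, mul_inv_cancel, Units.val_one]
  have hgg' : ((g⁻¹ : GL ι F) : Matrix ι ι F) * (g : Matrix ι ι F) = 1 := by
    rw [← Units.val_mul, inv_mul_cancel, Units.val_one]
  constructor
  · intro h a
    refine ⟨⟨_, (h a).1 a.2⟩, fun x => ?_⟩
    rw [rho_apply, rho_apply, le_apply, le_apply, Matrix.mulVec_mulVec, Matrix.mulVec_mulVec, mul_assoc, hgg', mul_one]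
  · intro h
    have h1 : ∀ k ∈ K, (g : Matrix ι ι F) * k * ((g⁻¹ : GL ι F) : Matrix ι ι F) ∈ K := by
      intro k hk
      obtain ⟨b, hb⟩ := h ⟨k, hk⟩
      have h2 : (g : Matrix ι ι F) * k = (b : Matrix ι ι F) * (g : Matrix ι ι F) := by
        apply Matrix.toLin'.injective
        apply LinearMap.ext
        intro x
        have := hb x
        rw [rho_apply, rho_apply, le_apply, le_apply, Matrix.mulVec_mulVec, Matrix.mulVec_mulVec] at this
        exact this
      rw [h2, mul_assoc, hgg, mul_one]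
      exact b.2
    -- surjectivity by dimension
    obtain ⟨T, hT⟩ : ∃ T : K →ₗ[F] K, ∀ k : K, ((T k : K) : Matrix ι ι F) =
        (g : Matrix ι ι F) * k * ((g⁻¹ : GL ι F) : Matrix ι ι F) :=
      ⟨⟨⟨fun k => ⟨_, h1 k k.2⟩, fun a b => Subtype.ext (by
          show (g : Matrix ι ι F) * ((a : Matrix ι ι F) + b) * _ = _
          rw [mul_add, add_mul]; rfl)⟩, fun c a => Subtype.ext (by
          show (g : Matrix ι ι F) * (c • (a : Matrix ι ι F)) * _ = _
          rw [mul_smul_comm, smul_mul_assoc]; rfl)⟩, fun k => rfl⟩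
    have hinj : Function.Injective T := by
      intro a b hab
      have h2 := congrArg (fun k : K => ((g⁻¹ : GL ι F) : Matrix ι ι F) * (k : Matrix ι ι F) * (g : Matrix ι ι F)) hab
      simp only [hT] at h2
      have h3 : ∀ m : Matrix ι ι F, ((g⁻¹ : GL ι F) : Matrix ι ι F) * ((g : Matrix ι ι F) * m *
          ((g⁻¹ : GL ι F) : Matrix ι ι F)) * (g : Matrix ι ι F) = m := by
        intro m
        rw [mul_assoc, mul_assoc ((g : Matrix ι ι F) * m), hgg', mul_one, ← mul_assoc, hgg', one_mul]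
      rw [h3, h3] at h2
      exact Subtype.ext h2
    have hsurj : Function.Surjective T := LinearMap.injective_iff_surjective.1 hinj
    intro k
    refine ⟨h1 k, fun hk => ?_⟩
    obtain ⟨a, ha⟩ := hsurj ⟨_, hk⟩
    have h2 := congrArg (fun k : K => ((g⁻¹ : GL ι F) : Matrix ι ι F) * (k : Matrix ι ι F) * (g : Matrix ι ι F)) ha
    simp only [hT] at h2
    have h3 : ∀ m : Matrix ι ι F, ((g⁻¹ : GL ι F) : Matrix ι ι F) * ((g : Matrix ι ι F) * m *
        ((g⁻¹ : GL ι F) : Matrix ι ι F)) * (g : Matrix ι ι F) = m := by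
      intro m
      rw [mul_assoc, mul_assoc ((g : Matrix ι ι F) * m), hgg', mul_one, ← mul_assoc, hgg', one_mul]
    rw [h3, h3] at h2
    rw [← h2]; exact a.2

end Cfsg.Agent.Lib.ExtBrH94
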