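import Cfsg.Agent.Lib.ExtClosedChar
import Cfsg.Agent.Lib.ZStarIso
import Cfsg.Agent.Lib.H76Char

/-!
# Extremely closed abelian `p`-subgroups: `H O_{p'}(G)` is normal (helper80)
-/

set_option autoImplicit false
set_option linter.all false

namespace Cfsg.Agent.Lib.ExtClosedMain

open Cfsg Subgroup Pointwise Cfsg.Agent.Lib.SubgroupTools Cfsg.Agent.Lib.BlockGA
  Cfsg.Agent.Lib.ExtClosed Cfsg.Agent.Lib.ExtClosed.EC Cfsg.Agent.Lib.BlockThird
  Cfsg.Agent.Lib.ExtClosedChar
open scoped ComplexConjugate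

universe u

variable {G : Type u} [Group G]

section isolated

variable [Finite G] {p : ℕ} [hp : Fact p.Prime] {M : Ideal AlgInt} {H : Subgroup G}

/-- multiplicativity at an element fixed by the normalizer -/
theorem char_mul (hM : IsPModular p M) (hC : Crit p H) {x v : G} (hx : x ∈ H) (hv : v ∈ H)
    (hxv : x * v ≠ 1) (hiso : ∀ y ∈ H, IsConj x y → y = x) {χ : IrrCharacter G}
    (hχ : χ ∈ principalBlock M G) :
    (χ : G → ℂ) x * (χ : G → ℂ) v = (χ : G → ℂ) 1 * (χ : G → ℂ) (x * v) := by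
  classical
  have := Fintype.ofFinite G
  have hE := hC.ec
  have h1 := StructConst.sum_conj_mul χ.2 v x
  have h2 : ∀ g : G, (χ : G → ℂ) (v * (g * x * g⁻¹)) = (χ : G → ℂ) (x * v) := by
    intro g
    obtain ⟨o, ho, h3⟩ := hE.exists_conj_eq g hx
    have h4 : nn hE g * x * (nn hE g)⁻¹ = x :=
      hiso _ (hE.nn_conj_mem g hx) (isConj_iff.2 ⟨_, rfl⟩)
    rw [h4] at h3
    rw [χ.2.isClassFunction.mul_comm, h3, mul_assoc]
    exact val_eq hM hC hχ ho (H.mul_mem hx hv) hxv
  simp only [h2, Finset.sum_const, Finset.card_univ, nsmul_eq_mul, ← Nat.card_eq_fintype_card] at h1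
  have hG : (Nat.card G : ℂ) ≠ 0 := by exact_mod_cast Nat.card_pos.ne'
  have h0 := χ.2.one_ne_zero
  rw [eq_div_iff h0] at h1
  apply mul_left_cancel₀ hG
  linear_combination -h1

theorem char_eq_zero (hM : IsPModular p M) (hC : Crit p H) {x w : G} (hx : x ∈ H) (hw : w ∈ H)
    (hw1 : w ≠ 1) (hiso : ∀ y ∈ H, IsConj x y → y = x) {χ : IrrCharacter G}
    (hχ : χ ∈ principalBlock M G) (h0 : (χ : G → ℂ) x = 0) : (χ : G → ℂ) w = 0 := by
  have h1 := char_mul hM hC hx (v := x⁻¹ * w) (H.mul_mem (H.inv_mem hx) hw)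
    (by rw [mul_inv_cancel_left]; exact hw1) hiso hχ
  rw [h0, zero_mul, mul_inv_cancel_left] at h1
  rcases mul_eq_zero.1 h1.symm with h2 | h2
  · exact absurd h2 χ.2.one_ne_zero
  · exact h2

theorem norm_eq (hM : IsPModular p M) (hC : Crit p H) {x : G} (hx : x ∈ H)
    (hx2 : 3 ≤ orderOf x) (hiso : ∀ y ∈ H, IsConj x y → y = x) {χ : IrrCharacter G}
    (hχ : χ ∈ principalBlock M G) (h0 : (χ : G → ℂ) x ≠ 0) : ‖(χ : G → ℂ) x‖ = ‖(χ : G → ℂ) 1‖ := by
  set f := (χ : G → ℂ) x / (χ : G → ℂ) 1 with hf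
  have h1 := χ.2.one_ne_zero
  have hpow : ∀ i : ℕ, i + 1 < orderOf x → (χ : G → ℂ) (x ^ (i + 1)) = (χ : G → ℂ) 1 * f ^ (i + 1) := by
    intro i
    induction i with
    | zero => intro _; rw [zero_add, pow_one, pow_one, hf]; field_simp
    | succ i ih =>
      intro hi
      have h2 := ih (by omega)
      have h3 := char_mul hM hC hx (v := x ^ (i + 1)) (H.pow_mem hx _)
        (by
          rw [← pow_succ']
          intro h
          have := Nat.le_of_dvd (by omega) (orderOf_dvd_of_pow_eq_one h)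
          omega) hiso hχ
      rw [← pow_succ', h2] at h3
      have h4 : (χ : G → ℂ) (x ^ (i + 1 + 1)) = (χ : G → ℂ) x * f ^ (i + 1) := by
        apply mul_left_cancel₀ h1
        rw [← h3]; ring
      rw [h4, pow_succ f (i + 1), hf]
      field_simp
  obtain ⟨k, hk⟩ : ∃ k, orderOf x = k + 3 := ⟨orderOf x - 3, by omega⟩
  have h2 := hpow (k + 1) (by omega)
  have h3 : x ^ (k + 1 + 1) = x⁻¹ := by
    rw [eq_inv_iff_mul_eq_one, ← pow_succ]
    have : k + 1 + 1 + 1 = orderOf x := by omega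
    rw [this, pow_orderOf_eq_one]
  rw [h3, χ.2.inv] at h2
  have h4 := congrArg norm h2
  rw [RCLike.norm_conj, norm_mul, norm_pow] at h4
  have h5 : ‖(χ : G → ℂ) x‖ = ‖(χ : G → ℂ) 1‖ * ‖f‖ := by
    rw [← norm_mul, hf]; congr 1; field_simp
  have h6 : 0 < ‖(χ : G → ℂ) 1‖ := norm_pos_iff.2 h1
  have h7 : 0 < ‖f‖ := norm_pos_iff.2 (div_ne_zero h0 h1)
  rw [h5] at h4
  have h8 : ‖f‖ ^ (k + 1) = 1 := by
    have h9 := mul_left_cancel₀ h6.ne' h4
    have h10 : ‖f‖ * 1 = ‖f‖ * ‖f‖ ^ (k + 1) := by rw [mul_one, ← pow_succ']; exact h9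
    exact (mul_left_cancel₀ h7.ne' h10).symm
  have h9 : ‖f‖ = 1 := (pow_eq_one_iff_of_nonneg h7.le (Nat.succ_ne_zero k)).1 h8
  rw [h5, h9, mul_one]

/-- no element of order at least three of `H` is fixed by the normalizer -/
theorem false_of_iso (hM : IsPModular p M) (hC : Crit p H) {x : G} (hx : x ∈ H) (hx1 : x ≠ 1)
    (hx2 : 3 ≤ orderOf x) (hiso : ∀ y ∈ H, IsConj x y → y = x) : False := by
  classical
  have := Fintype.ofFinite G
  have hE := hC.ec
  have htr := triv_mem_Bs (G := G) hM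
  -- the intersection of the kernels
  let R : Subgroup G :=
    { carrier := {g | ∀ χ ∈ Bs M G, (χ : G → ℂ) x ≠ 0 → (χ : G → ℂ) g = (χ : G → ℂ) 1}
      mul_mem' := fun {a b} ha hb χ hχ h0 => by
        rw [char_ker_mul χ.2.isCharacter (ha χ hχ h0)]; exact hb χ hχ h0
      one_mem' := fun χ _ _ => rfl
      inv_mem' := fun {a} ha χ hχ h0 => (kerS χ.2.isCharacter).inv_mem (ha χ hχ h0) }
  have hRn : R.Normal := ⟨fun n hn g χ hχ h0 => by
    rw [χ.2.isClassFunction]; exact hn χ hχ h0⟩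
  -- `H ∩ R = 1`
  have hHR : ∀ w ∈ H, w ∈ R → w = 1 := by
    intro w hw hwR
    by_contra hw1
    have h1 : Th M (1 : G) w = 0 := by
      apply th_pp hM ⟨0, by simp⟩ (exists_order hE hw)
      intro h2
      obtain ⟨g, hg⟩ := isConj_iff.1 h2
      apply hw1
      rw [← hg]; simp
    have h2 : Th M (1 : G) w = ((∑ χ ∈ Bs M G, if (χ : G → ℂ) x = 0 then 0 else deg χ ^ 2 : ℝ) : ℂ) := by
      rw [Th]
      push_cast
      refine Finset.sum_congr rfl fun χ hχ => ?_
      split_ifs with h0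
      · rw [char_eq_zero hM hC hx hw hw1 hiso (mem_Bs.1 hχ) h0]; simp
      · rw [hwR χ hχ h0, deg_spec]
        simp [pow_two]
    rw [h1] at h2
    have h3 : (0 : ℝ) = ∑ χ ∈ Bs M G, if (χ : G → ℂ) x = 0 then 0 else deg χ ^ 2 := by exact_mod_cast h2
    have h4 : (∑ χ ∈ Bs M G, if (χ : G → ℂ) x = 0 then 0 else deg χ ^ 2) ≥
        if ((triv G : IrrCharacter G) : G → ℂ) x = 0 then 0 else deg (triv G) ^ 2 :=
      Finset.single_le_sum (f := fun χ : IrrCharacter G => if (χ : G → ℂ) x = 0 then (0 : ℝ) else deg χ ^ 2)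
        (fun χ _ => by split_ifs <;> positivity) htr
    rw [← h3, if_neg (by simp), deg_triv] at h4
    norm_num at h4
  -- `R` is a `p'`-group
  obtain ⟨P, hHP⟩ := hE.pg.exists_le_sylow
  obtain ⟨hPN, hsc⟩ := (S3021.result H hE.pg hE.cl).2 P hHP
  have hxP : x ∈ (P : Subgroup G) := hHP hx
  have hPR : ∀ v ∈ (P : Subgroup G), v ∈ R → v = 1 := by
    intro v hv hvR
    by_contra hv1
    have hcomm : Commute v x := by
      have h1 : v * x * v⁻¹ ∈ H := ((mem_normalizer_iff.1 (hPN hv)) x).1 hx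
      have h2 := hiso _ h1 (isConj_iff.2 ⟨v, rfl⟩)
      rw [mul_inv_eq_iff_eq_mul] at h2
      exact h2
    have hord : ∀ y ∈ (P : Subgroup G), ∃ k : ℕ, orderOf y = p ^ k := by
      intro y hy
      obtain ⟨k, hk⟩ := (IsPGroup.iff_orderOf.1 P.isPGroup') ⟨y, hy⟩
      exact ⟨k, by rwa [Subgroup.orderOf_mk] at hk⟩
    have hnc : ¬ IsConj (v * x) x := by
      intro h
      obtain ⟨g, hg⟩ := isConj_iff.1 h.symm
      have h1 : g * x * g⁻¹ ∈ H := by
        apply hsc.2 x hx g
        rw [hg]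
        exact mul_mem hv hxP
      rw [hg] at h1
      have h2 : v ∈ H := by
        have := H.mul_mem h1 (H.inv_mem hx)
        rwa [mul_inv_cancel_right] at this
      exact hv1 (hHR v h2 hvR)
    have h1 := th_pp hM (hord _ (mul_mem hv hxP)) (hord x hxP) hnc
    have h2 : Th M (v * x) x = ((∑ χ ∈ Bs M G, if (χ : G → ℂ) x = 0 then 0 else ‖(χ : G → ℂ) x‖ ^ 2 : ℝ) : ℂ) := by
      rw [Th]
      push_cast
      refine Finset.sum_congr rfl fun χ hχ => ?_
      split_ifs with h0
      · rw [h0]; simp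
      · rw [char_ker_mul χ.2.isCharacter (hvR χ hχ h0), Complex.mul_conj', Complex.ofReal_pow]
    rw [h1] at h2
    have h3 : (0 : ℝ) = ∑ χ ∈ Bs M G, if (χ : G → ℂ) x = 0 then 0 else ‖(χ : G → ℂ) x‖ ^ 2 := by
      exact_mod_cast h2
    have h4 : (∑ χ ∈ Bs M G, if (χ : G → ℂ) x = 0 then 0 else ‖(χ : G → ℂ) x‖ ^ 2) ≥
        if ((triv G : IrrCharacter G) : G → ℂ) x = 0 then 0 else ‖((triv G : IrrCharacter G) : G → ℂ) x‖ ^ 2 :=
      Finset.single_le_sum (f := fun χ : IrrCharacter G => if (χ : G → ℂ) x = 0 then (0 : ℝ) else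
        ‖(χ : G → ℂ) x‖ ^ 2) (fun χ _ => by split_ifs <;> positivity) htr
    rw [← h3, if_neg (by simp)] at h4
    simp at h4
    norm_num at h4
  have hRp : (Nat.card R).Coprime p := by
    rw [Nat.coprime_comm, hp.out.coprime_iff_not_dvd]
    intro hdvd
    obtain ⟨v, hv⟩ := exists_prime_orderOf_dvd_card' (G := R) p hdvd
    have hvp : IsPGroup p (zpowers (v : G)) := by
      apply IsPGroup.of_card (n := 1)
      rw [Nat.card_zpowers, Subgroup.orderOf_coe, hv, pow_one]
    obtain ⟨Q, hQ⟩ := hvp.exists_le_sylow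
    obtain ⟨g, hg⟩ := MulAction.exists_smul_eq G Q P
    have h1 : g * (v : G) * g⁻¹ ∈ (P : Subgroup G) := by
      rw [← hg]
      exact Isolated.conj_mem_smul Q g (hQ (mem_zpowers _))
    have h2 := hPR _ h1 (hRn.conj_mem _ v.2 g)
    have h3 : (v : G) = 1 := by
      have : (v : G) = g⁻¹ * (g * (v : G) * g⁻¹) * g := by group
      rw [this, h2]; group
    have h4 : v = 1 := Subtype.ext h3
    rw [h4, orderOf_one] at hv
    exact hp.out.one_lt.ne hv
  have hRbot : R = ⊥ := by
    have := Cores.le_pPrimeCore hRn hRp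
    rwa [hC.bot, le_bot_iff] at this
  apply hx1
  apply hC.cent x hx
  rw [Subgroup.mem_center_iff]
  intro g
  have h1 : g * x * g⁻¹ * x⁻¹ ∈ R := by
    intro χ hχ h0
    exact char_comm_of_norm χ.2.isCharacter (norm_eq hM hC hx hx2 hiso (mem_Bs.1 hχ) h0) g
  rw [hRbot, mem_bot, mul_inv_eq_one, mul_inv_eq_iff_eq_mul] at h1
  exact h1

/-- a critical configuration has `H = 1` -/
theorem eq_bot_of_crit (BS : p = 2 → ZStar.BrauerSuzukiStatement.{u}) (hC : Crit p H) : H = ⊥ := by
  classical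
  obtain ⟨M, hM⟩ := H76Char.exists_isPModular p
  letI : Fintype H := Fintype.ofFinite H
  have hE := hC.ec
  by_contra hne
  have hne' : ∃ x : H, x ≠ 1 := by
    by_contra h
    push Not at h
    apply hne
    rw [eq_bot_iff]
    intro x hx
    rw [mem_bot]
    exact congrArg Subtype.val (h ⟨x, hx⟩)
  obtain ⟨x₀, hx₀⟩ := hne'
  obtain ⟨x, hxm, hxmin⟩ := Finset.exists_min_image (Finset.univ.filter fun x : H => x ≠ 1)
    (fun x : H => (dd H (x : G) : ℝ) * SS M (x : G)) ⟨x₀, by simp [hx₀]⟩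
  have hx1' : x ≠ 1 := (Finset.mem_filter.1 hxm).2
  have hx1 : (x : G) ≠ 1 := fun h => hx1' (Subtype.ext h)
  have hd := dd_eq_one hM hC x.2 hx1 (fun y hy hy1 => hxmin ⟨y, hy⟩ (by
    rw [Finset.mem_filter]
    exact ⟨Finset.mem_univ _, fun h => hy1 (congrArg Subtype.val h)⟩))
  have hiso : ∀ y ∈ H, IsConj (x : G) y → y = x := by
    intro y hy hc
    rw [dd, Finset.card_eq_one] at hd
    obtain ⟨a, ha⟩ := hd
    have h1 : x ∈ Finset.univ.filter fun h : H => IsConj (x : G) h :=
      Finset.mem_filter.2 ⟨Finset.mem_univ _, IsConj.refl _⟩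
    have h2 : (⟨y, hy⟩ : H) ∈ Finset.univ.filter fun h : H => IsConj (x : G) h :=
      Finset.mem_filter.2 ⟨Finset.mem_univ _, hc⟩
    have h1' : x = a := by
      have : x ∈ ({a} : Finset H) := by rw [← ha]; convert h1
      exact Finset.mem_singleton.1 this
    have h2' : (⟨y, hy⟩ : H) = a := by
      have : (⟨y, hy⟩ : H) ∈ ({a} : Finset H) := by rw [← ha]; convert h2
      exact Finset.mem_singleton.1 this
    exact congrArg Subtype.val (h2'.trans h1'.symm)
  by_cases hx3 : 3 ≤ orderOf (x : G)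
  · exact false_of_iso hM hC x.2 hx1 hx3 hiso
  · -- `p = 2`
    obtain ⟨k, hk⟩ := exists_order hE x.2
    have h1 : orderOf (x : G) ≠ 1 := fun h => hx1 (orderOf_eq_one_iff.1 h)
    have h0 : 0 < orderOf (x : G) := orderOf_pos _
    have h2 : orderOf (x : G) = 2 := by omega
    have hp2 : p = 2 := by
      have hk0 : k ≠ 0 := by rintro rfl; rw [pow_zero] at hk; exact h1 hk
      have : p ∣ 2 := by rw [← h2, hk]; exact dvd_pow_self p hk0
      exact (Nat.prime_dvd_prime_iff_eq hp.out Nat.prime_two).1 this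
    subst hp2
    obtain ⟨P, hHP⟩ := hE.pg.exists_le_sylow
    obtain ⟨hPN, hsc⟩ := (S3021.result H hE.pg hE.cl).2 P hHP
    have h3 := ZStarIso.inZStar_of_sylow (BS rfl) G P (x := (x : G)) (hHP x.2) (by
      intro g hg
      exact hiso _ (hsc.2 x x.2 g hg) (isConj_iff.2 ⟨g, rfl⟩))
    apply hx1
    apply hC.cent x x.2
    rw [Subgroup.mem_center_iff]
    intro g
    have h4 := h3 g
    rw [hC.bot, mem_bot, mul_inv_eq_one, mul_inv_eq_iff_eq_mul] at h4
    exact h4

end isolated


section inherit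

variable [Finite G] {p : ℕ} [hp : Fact p.Prime] {H : Subgroup G}

theorem ec_subgroup (hE : EC p H) {L : Subgroup G} (hL : H ≤ L) : EC p (H.subgroupOf L) := by
  refine ⟨hE.pg.comap_subtype, ⟨⟨fun a b => ?_⟩⟩, fun g => ?_⟩
  · exact Subtype.ext (Subtype.ext (hE.comm (mem_subgroupOf.1 a.2) (mem_subgroupOf.1 b.2)))
  · apply le_antisymm
    · rintro t ⟨ht, htn⟩
      rw [mem_subgroupOf]
      apply hE.mem_of_normalizer (g := (g : G))
      · have h1 : H.subgroupOf L ⊔ (H.subgroupOf L).map (MulAut.conj g).toMonoidHom ≤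
            (TT H (g : G)).subgroupOf L := by
          apply sup_le
          · intro x hx
            exact mem_subgroupOf.2 (le_TT H _ (mem_subgroupOf.1 hx))
          · rintro _ ⟨x, hx, rfl⟩
            rw [mem_subgroupOf]
            exact conj_le_TT H _ ⟨(x : G), mem_subgroupOf.1 hx, rfl⟩
        exact mem_subgroupOf.1 (h1 ht)
      · have htn' : t ∈ normalizer ((H.subgroupOf L : Subgroup L) : Set L) := htn
        rw [mem_normalizer_iff] at htn'
        rw [mem_normalizer_iff]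
        intro h
        constructor
        · intro hh
          exact mem_subgroupOf.1 ((htn' ⟨h, hL hh⟩).1 (mem_subgroupOf.2 hh))
        · intro hh
          have h1 : h ∈ L := by
            have := L.mul_mem (L.mul_mem (L.inv_mem t.2) (hL hh)) t.2
            have e : (t : G)⁻¹ * ((t : G) * h * (t : G)⁻¹) * (t : G) = h := by group
            rwa [e] at this
          exact mem_subgroupOf.1 ((htn' ⟨h, h1⟩).2 (mem_subgroupOf.2 hh))
    · exact le_inf le_sup_left le_normalizer

theorem ec_quotient (hE : EC p H) (K : Subgroup G) [hK : K.Normal] :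
    EC p (H.map (QuotientGroup.mk' K)) := by
  refine ⟨hE.pg.map _, ⟨⟨fun a b => ?_⟩⟩, fun gb => ?_⟩
  · obtain ⟨a, x, hx, rfl⟩ := a
    obtain ⟨b, y, hy, rfl⟩ := b
    apply Subtype.ext
    show (QuotientGroup.mk' K) x * (QuotientGroup.mk' K) y = (QuotientGroup.mk' K) y * (QuotientGroup.mk' K) x
    rw [← map_mul, ← map_mul, hE.comm hx hy]
  · obtain ⟨g, rfl⟩ := QuotientGroup.mk'_surjective K gb
    apply le_antisymm
    · rintro tb ⟨ht, htn⟩
      have h1 : H.map (QuotientGroup.mk' K) ⊔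
          (H.map (QuotientGroup.mk' K)).map (MulAut.conj (QuotientGroup.mk' K g)).toMonoidHom =
          (TT H g).map (QuotientGroup.mk' K) := by
        show _ ⊔ MulAut.conj (QuotientGroup.mk' K g) • (H.map (QuotientGroup.mk' K)) = _
        rw [← map_conj_smul, ← Subgroup.map_sup]
        rfl
      rw [SetLike.mem_coe, h1] at ht
      obtain ⟨t, ht, rfl⟩ := ht
      -- `S = T ∩ H K`
      set S : Subgroup G := TT H g ⊓ (H ⊔ K) with hS
      have hHS : H ≤ S := le_inf (le_TT H g) le_sup_left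
      have hmemHK : ∀ x, x ∈ H ⊔ K ↔ QuotientGroup.mk' K x ∈ H.map (QuotientGroup.mk' K) := by
        intro x
        constructor
        · intro hx
          obtain ⟨h, hh, k, hk, rfl⟩ := mem_sup_of_normal_right.1 hx
          refine ⟨h, hh, ?_⟩
          rw [map_mul]
          have : QuotientGroup.mk' K k = 1 := (QuotientGroup.eq_one_iff k).2 hk
          rw [this, mul_one]
        · rintro ⟨h, hh, hx⟩
          have h2 : h⁻¹ * x ∈ K := QuotientGroup.eq.1 hx
          have : x = h * (h⁻¹ * x) := by group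
          rw [this]
          exact mul_mem (mem_sup_left hh) (mem_sup_right h2)
      have htS : ∀ x ∈ H, t * x * t⁻¹ ∈ S := by
        intro x hx
        refine ⟨(TT H g).mul_mem ((TT H g).mul_mem ht (le_TT H g hx)) ((TT H g).inv_mem ht), ?_⟩
        show t * x * t⁻¹ ∈ H ⊔ K
        rw [hmemHK, map_mul, map_mul, map_inv]
        have htn' : QuotientGroup.mk' K t ∈ normalizer ((H.map (QuotientGroup.mk' K) : Subgroup (G ⧸ K)) : Set (G ⧸ K)) := htn
        rw [mem_normalizer_iff] at htn'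
        exact (htn' _).1 ⟨x, hx, rfl⟩
      have htS' : MulAut.conj t • H ≤ S := by
        intro x hx
        rw [mem_conj_smul] at hx
        have h2 := htS _ hx
        have e : t * (t⁻¹ * x * t) * t⁻¹ = x := by group
        rwa [e] at h2
      have hi : ∀ K' : Subgroup G, K' ≤ S → Nat.card K' = Nat.card H → ¬ p ∣ K'.relIndex S := by
        intro K' hK' hc hdvd
        apply hE.not_dvd_relIndex g
        have h2 := Cores.card_mul_relIndex (le_TT H g)
        have h3 := Cores.card_mul_relIndex hK'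
        have h4 := Cores.card_mul_relIndex (inf_le_left : S ≤ TT H g)
        rw [← h3, hc, ← h2, mul_assoc] at h4
        have h5 := Nat.eq_of_mul_eq_mul_left Nat.card_pos h4
        rw [← h5]
        exact Dvd.dvd.mul_right hdvd _
      have hpc : IsPGroup p (MulAut.conj t • H : Subgroup G) := by
        obtain ⟨n, hn⟩ := IsPGroup.iff_card.1 hE.pg
        exact IsPGroup.iff_card.2 ⟨n, (card_conj_smul t H).trans hn⟩
      obtain ⟨s, hs, hsH⟩ := sylow_conj_rel hHS htS' hE.pg hpc (hi H hHS rfl)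
        (hi _ htS' (card_conj_smul t H))
      have h2 : s⁻¹ * t ∈ H := by
        apply hE.mem_of_normalizer (g := g) (mul_mem (inv_mem hs.1) ht)
        rw [mem_normalizer_iff_conj_smul, conj_smul_mul, ← hsH, ← conj_smul_mul, inv_mul_cancel,
          conj_smul_one]
      have h3 : t ∈ H ⊔ K := by
        have : t = s * (s⁻¹ * t) := by group
        rw [this]
        exact mul_mem hs.2 (mem_sup_left h2)
      exact (hmemHK t).1 h3
    · exact le_inf le_sup_left le_normalizer

end inherit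

/-- `H O_{p'}(G)` is normal -/
def Good (p : ℕ) (H : Subgroup G) : Prop := ∀ g : G, ∀ h ∈ H, g * h * g⁻¹ ∈ pPrimeCore p G ⊔ H

theorem good (p : ℕ) [hp : Fact p.Prime] (BS : p = 2 → ZStar.BrauerSuzukiStatement.{u}) (n : ℕ) :
    ∀ (G : Type u) [Group G] [Finite G], Nat.card G = n → ∀ H : Subgroup G, EC p H → Good p H := by
  induction n using Nat.strong_induction_on with
  | _ n ih =>
  intro G _ _ hn H hE
  by_contra hng
  -- quotients
  have hquot : ∀ K : Subgroup G, [K.Normal] → K ≠ ⊥ → pPrimeCore p (G ⧸ K) = ⊥ →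
      ∀ g : G, ∀ h ∈ H, g * h * g⁻¹ ∈ K ⊔ H := by
    intro K _ hK hbot g h hh
    have h1 := ih _ (hn ▸ ZStar.card_quotient_lt hK) (G ⧸ K) rfl (H.map (QuotientGroup.mk' K))
      (ec_quotient hE K) (QuotientGroup.mk' K g) (QuotientGroup.mk' K h) ⟨h, hh, rfl⟩
    rw [hbot, bot_sup_eq, ← map_inv, ← map_mul, ← map_mul] at h1
    obtain ⟨h', hh', h2⟩ := h1
    have h3 : h'⁻¹ * (g * h * g⁻¹) ∈ K := QuotientGroup.eq.1 h2
    have e : g * h * g⁻¹ = h' * (h'⁻¹ * (g * h * g⁻¹)) := by group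
    rw [e]
    exact mul_mem (mem_sup_right hh') (mem_sup_left h3)
  have hbot : pPrimeCore p G = ⊥ := by
    by_contra hO
    exact hng (hquot (pPrimeCore p G) hO (Cores.pPrimeCore_quotient_pPrimeCore p G))
  -- if `g H g⁻¹ ≤ H` for all `g` we are done
  have hnorm : ¬ ∀ g : G, ∀ h ∈ H, g * h * g⁻¹ ∈ H := fun h => hng (fun g x hx => mem_sup_right (h g x hx))
  -- subgroups
  have hsub : ∀ L : Subgroup G, H ≤ L → L ≠ ⊤ → ∀ l ∈ L, ∀ h ∈ H,
      l * h * l⁻¹ ∈ (pPrimeCore p L).map L.subtype ⊔ H := by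
    intro L hHL hL l hl h hh
    have h1 := ih _ (hn ▸ ZStar.card_lt_of_ne_top hL) L rfl (H.subgroupOf L) (ec_subgroup hE hHL)
      ⟨l, hl⟩ ⟨h, hHL hh⟩ (mem_subgroupOf.2 hh)
    have h2 : ((pPrimeCore p L) ⊔ H.subgroupOf L).map L.subtype ≤ (pPrimeCore p L).map L.subtype ⊔ H := by
      rw [Subgroup.map_sup]
      exact sup_le_sup_left (by rw [subgroupOf_map_subtype]; exact inf_le_left) _
    exact h2 ⟨_, h1, rfl⟩
  -- a `p`-subgroup normalizing `H` condition
  have hpn : ∀ L : Subgroup G, (∀ g, TT H g ≤ L) → (∀ l ∈ L, ∀ h ∈ H, l * h * l⁻¹ ∈ H) → False := by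
    intro L hL hLn
    apply hnorm
    intro g h hh
    have h1 : g * h * g⁻¹ ∈ TT H g := conj_le_TT H g ⟨h, hh, rfl⟩
    apply hE.mem_of_normalizer h1
    rw [mem_normalizer_iff]
    intro x
    constructor
    · exact fun hx => hLn _ (hL g h1) x hx
    · intro hx
      have h2 := hLn _ (inv_mem (hL g h1)) _ hx
      have e : (g * h * g⁻¹)⁻¹ * (g * h * g⁻¹ * x * (g * h * g⁻¹)⁻¹) * (g * h * g⁻¹)⁻¹⁻¹ = x := by group
      rwa [e] at h2
  have hcent : ∀ y ∈ H, y ∈ Subgroup.center G → y = 1 := by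
    intro y hy hyc
    by_contra hy1
    have hZc : zpowers y ≤ Subgroup.center G := by rw [zpowers_le]; exact hyc
    haveI hZn : (zpowers y).Normal := ⟨fun z hz g => by
      have h1 := Subgroup.mem_center_iff.1 (hZc hz) g
      rw [h1]
      simpa using hz⟩
    have hZp : IsPGroup p (zpowers y) := hE.pg.to_le (by rw [zpowers_le]; exact hy)
    have hb := ZStarPow.pPrimeCore_quotient_central hbot (zpowers y) hZc hZp
    have h1 := hquot (zpowers y) (by rw [Ne, zpowers_eq_bot]; exact hy1) hb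
    apply hnorm
    intro g h hh
    have h2 := h1 g h hh
    have h3 : zpowers y ⊔ H = H := sup_eq_right.2 (by rw [zpowers_le]; exact hy)
    rwa [h3] at h2
  have hC : Crit p H := by
    refine ⟨hE, hbot, ?_, hcent, ?_⟩
    · intro L hLn hHL
      by_contra hL
      apply hpn L
      · intro g
        apply sup_le hHL
        rintro _ ⟨x, hx, rfl⟩
        exact hLn.conj_mem x (hHL hx) g
      · intro l hl h hh
        have h1 := hsub L hHL hL l hl h hh
        have h2 : (pPrimeCore p L).map L.subtype = ⊥ := by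
          rw [eq_bot_iff, ← hbot]
          exact Cores.map_pPrimeCore_subtype_le p L
        rwa [h2, bot_sup_eq] at h1
    · intro y hy hy1 c hc h hh
      apply hsub
      · intro x hx
        rw [mem_centralizer_singleton_iff]
        exact hE.comm hx hy
      · intro htop
        apply hy1
        apply hcent y hy
        rw [Subgroup.mem_center_iff]
        intro g
        have : g ∈ centralizer ({y} : Set G) := by rw [htop]; trivial
        rw [mem_centralizer_singleton_iff] at this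
        exact this
      · rw [mem_centralizer_singleton_iff]
        exact hc.symm
      · exact hh
  have h1 := eq_bot_of_crit BS hC
  apply hnorm
  intro g h hh
  rw [h1, mem_bot] at hh ⊢
  rw [hh]; group

/-- `G = N_G(H) O_{p'}(G)` -/
theorem normalizer_sup (p : ℕ) [hp : Fact p.Prime] (BS : p = 2 → ZStar.BrauerSuzukiStatement.{u})
    [Finite G] {H : Subgroup G} (hE : EC p H) : normalizer (H : Set G) ⊔ pPrimeCore p G = ⊤ := by
  have hg := good p BS _ G rfl H hE
  rw [eq_top_iff]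
  intro g _
  have hmem : ∀ x ∈ H, g * x * g⁻¹ ∈ pPrimeCore p G ⊔ H := fun x hx => hg g x hx
  set L := pPrimeCore p G ⊔ H with hL
  have hHL : H ≤ L := le_sup_right
  have hle : MulAut.conj g • H ≤ L := by
    intro x hx
    rw [mem_conj_smul] at hx
    have h2 := hmem _ hx
    have e : g * (g⁻¹ * x * g) * g⁻¹ = x := by group
    rwa [e] at h2
  have hpc : IsPGroup p (MulAut.conj g • H : Subgroup G) := by
    obtain ⟨n, hn⟩ := IsPGroup.iff_card.1 hE.pg
    exact IsPGroup.iff_card.2 ⟨n, (card_conj_smul g H).trans hn⟩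
  have hdisj : Disjoint (pPrimeCore p G) H := by
    rw [disjoint_iff, inf_comm]
    exact Cores.isPGroup_inf_pPrimeCore hE.pg
  have hHn : H ≤ normalizer (pPrimeCore p G : Set G) := by
    have := pPrimeCore_normal p G
    rw [normalizer_eq_top]
    exact le_top
  have hcard : Nat.card L = Nat.card (pPrimeCore p G) * Nat.card H := card_sup_of_disjoint hHn hdisj
  have hi : ∀ K : Subgroup G, K ≤ L → Nat.card K = Nat.card H → ¬ p ∣ K.relIndex L := by
    intro K hK hc
    have h1 := Cores.card_mul_relIndex hK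
    rw [hcard, hc, mul_comm (Nat.card (pPrimeCore p G))] at h1
    rw [Nat.eq_of_mul_eq_mul_left Nat.card_pos h1, ← hp.out.coprime_iff_not_dvd, Nat.coprime_comm]
    exact Cores.coprime_card_pPrimeCore p G
  obtain ⟨l, hl, hlH⟩ := sylow_conj_rel hHL hle hE.pg hpc (hi H hHL rfl) (hi _ hle (card_conj_smul g H))
  obtain ⟨o, ho, h, hh, rfl⟩ := mem_sup_of_normal_left.1 hl
  have h1 : o⁻¹ * g ∈ normalizer (H : Set G) := by
    rw [conj_smul_mul, conj_smul_self_of_mem hh] at hlH
    rw [mem_normalizer_iff_conj_smul, conj_smul_mul, ← hlH, ← conj_smul_mul, inv_mul_cancel,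
      conj_smul_one]
  have e : g = o * (o⁻¹ * g) := by group
  rw [e]
  exact mul_mem (mem_sup_right ho) (mem_sup_left h1)

end Cfsg.Agent.Lib.ExtClosedMain
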