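import Cfsg.Agent.Lib.ExtClosedMain
import Cfsg.Agent.Lib.GlaubCorrConj
import Cfsg.Agent.Lib.H76Ext
import Cfsg.Agent.Lib.CharNorm
import Cfsg.Agent.Lib.BlockCover

/-!
# Extremely closed abelian `p`-subgroups, `p` odd: the normal closure

If `H` is an extremely closed abelian `p`-subgroup of the finite group `G`, `p` odd, then the normal
closure of `H` meets `N_G(H)` in `H`. The proof uses a faithful `H`-invariant character of `O_{p'}(G)`
and the (cyclic) Glauberman correspondence in the form of Brauer's second main theorem.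
-/

set_option autoImplicit false
set_option linter.all false

namespace Cfsg.Agent.Lib.ExtClosedOdd

open Cfsg Subgroup Cfsg.Agent.Lib.BlockRing Cfsg.Agent.Lib.BlockGA Cfsg.Agent.Lib.BlockIdem
open Cfsg.Agent.Lib.BlockSecond Cfsg.Agent.Lib.BlockCover Cfsg.Agent.Lib.BlockCore
open Cfsg.Agent.Lib.Clifford Cfsg.Agent.Lib.GlaubCorr Cfsg.Agent.Lib.BlockRes
open Cfsg.Agent.Lib.ExtClosed Cfsg.Agent.Lib.ExtClosed.EC Cfsg.Agent.Lib.ExtClosedChar
open Cfsg.Agent.Lib.ExtClosedMain Cfsg.Agent.Lib.SubgroupTools Cfsg.Agent.Lib.PosDef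
open Cfsg.Agent.Lib.BlockThird Cfsg.Agent.Lib.CharBasic
open MonoidAlgebra (single)
open scoped ComplexConjugate Pointwise

universe u w

section value

variable {G : Type u} [Group G] [Finite G] {p : ℕ} {M : Ideal AlgInt}

/-- the Glauberman correspondence via block idempotents -/
theorem idlA_pull_sub {S : Type w} [Group S] [Finite S] {act : S →* MulAut G} {C : Type u} [Group C]
    [Finite C] [Fintype C] {ι : C →* G} (D : Data p M act ι) {θ : IrrCharacter G} {φ : IrrCharacter C}
    (hθ : Inv act (θ : G → ℂ)) (h : ¬ p ∣ mult ι θ φ) :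
    IdlA M (pull ι (eB {θ}) - eB {φ}) := by
  classical
  haveI := D.isPrime
  have hpC := not_dvd_card_C D
  have hc : pull ι (eB {θ}) ∈ Subalgebra.center ℂ (GA C) := pull_center ι (eB_mem_center _)
  have h1 : pull ι (eB {θ}) - eB {φ} =
      ∑ β : IrrCharacter C, (omega (β : C → ℂ) (pull ι (eB {θ})) - if β = φ then 1 else 0) • eB {β} := by
    conv_lhs => rw [expand (pull ι (eB {θ})) hc]
    simp only [sub_smul, Finset.sum_sub_distrib]
    congr 1
    rw [Finset.sum_eq_single φ]
    · simp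
    · intro b _ hb; simp [hb]
    · intro h; exact absurd (Finset.mem_univ _) h
  rw [h1]
  refine idlA_sum fun β _ => idlA_smul' ?_ (locA_eB_singleton D.hM hpC β)
  by_cases hβ : β = φ
  · subst hβ
    rw [if_pos rfl]
    exact a_sub_one D hθ h
  · rw [if_neg hβ, sub_zero, idl_a_iff D]
    by_contra h2
    exact hβ (unique_beta D hθ h2 h)

variable {O : Subgroup G} [hO : O.Normal]

theorem stable_singleton {θ : IrrCharacter O} (hθ : ∀ g : G, cj O g (θ : O → ℂ) = θ) :
    Stable ({θ} : Set (IrrCharacter O)) := by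
  intro g θ' hθ' ψ hψ
  rw [Set.mem_singleton_iff] at hθ' ⊢
  subst hθ'
  apply Subtype.ext
  rw [hψ, hθ]

/-- `χ (g e_θ) = χ g` if `χ` extends `θ` -/
theorem lin_mul_incH_eB {θ : IrrCharacter O} (hθ : ∀ g : G, cj O g (θ : O → ℂ) = θ)
    {χ : IrrCharacter G} (hχ : ∀ x : O, (χ : G → ℂ) x = (θ : O → ℂ) x) (z : GA G) :
    lin (χ : G → ℂ) (z * incH O (eB {θ})) = lin (χ : G → ℂ) z := by
  classical
  have := Fintype.ofFinite O
  have := Fintype.ofFinite G
  have h1 : classInner (fun x : O => (χ : G → ℂ) x) (θ : O → ℂ) ≠ 0 := by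
    have : (fun x : O => (χ : G → ℂ) x) = (θ : O → ℂ) := funext hχ
    rw [this, θ.2.classInner_self]
    exact one_ne_zero
  have h2 := omega_incH_eB_mem h1 (stable_singleton hθ) (Set.mem_singleton _)
  have h3 := incH_eB_mem_center (stable_singleton hθ)
  rw [lin_mul_comm χ.2.isClassFunction, lin_mul χ.2 h3, h2, one_mul]

/-- Values on the section of `y` of a character extending `θ`: only the Glauberman correspondent
of `θ` is seen. -/
theorem section_value (hM : IsPModular p M) (hpO : ¬ p ∣ Nat.card O)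
    {θ : IrrCharacter O} (hθ : ∀ g : G, cj O g (θ : O → ℂ) = θ)
    {χ : IrrCharacter G} (hχ : ∀ x : O, (χ : G → ℂ) x = (θ : O → ℂ) x)
    {y : G} {k : ℕ} (hy : orderOf y = p ^ k) {C : Subgroup G} [Fintype C]
    (hC : C = O ⊓ centralizer (zpowers y : Set G)) (hCO : C ≤ O) {φ : IrrCharacter C}
    (h : ¬ p ∣ mult (Subgroup.inclusion hCO) θ φ) {x : G} (hx : x ∈ C) :
    lin (χ : G → ℂ) (single (y * x) 1 * incH C (eB {φ})) = (χ : G → ℂ) (y * x) := by
  classical
  haveI := BlockRing.isPrime hM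
  have hmemC : ∀ c, c ∈ C ↔ c ∈ O ∧ Commute y c := by
    intro c
    rw [hC, mem_inf, mem_centralizer_iff]
    refine and_congr_right fun _ => ?_
    constructor
    · intro h1
      exact h1 y (mem_zpowers y)
    · intro h1 z hz
      obtain ⟨n, rfl⟩ := mem_zpowers_iff.1 hz
      exact (h1.zpow_left n).eq
  have hyx : Commute y x := ((hmemC x).1 hx).2
  have hpC : ¬ p ∣ Nat.card C := fun h1 => hpO (h1.trans (card_dvd_of_le hCO))
  have hnorm : ∀ s ∈ zpowers y, ∀ g ∈ O, s * g * s⁻¹ ∈ O := fun s _ g hg => hO.conj_mem g hg s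
  have hS : IsPGroup p (zpowers y) := by
    apply IsPGroup.of_card (n := k)
    rw [Nat.card_zpowers, hy]
  have D := data_conj hnorm hM hS hpO hC hCO
  have hinv : Inv (conjAct O (zpowers y) hnorm) (θ : O → ℂ) := by
    rw [inv_conjAct_iff]
    intro s _ g g' hg'
    have := congrFun (hθ s) g
    rw [Clifford.cj_apply] at this
    exact (congrArg (θ : O → ℂ) (Subtype.ext hg')).trans this
  have h1 := idlA_pull_sub D hinv h
  set a : GA G := incH O (eB {θ}) with ha
  set b : GA G := incH C (eB {φ}) with hb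
  have hac : a ∈ Subalgebra.center ℂ (GA G) := incH_eB_mem_center (stable_singleton hθ)
  have hla : LocA M a := locA_incH (locA_eB_singleton hM hpO θ)
  have hlb : LocA M b := locA_incH (locA_eB_singleton hM hpC φ)
  have hbx : Commute b (single x 1) := commute_incH (eB_mem_center _) hx
  have hby : Commute b (single y 1) := by
    apply Commute.symm
    show single y 1 * b = b * single y 1
    ext g
    rw [MonoidAlgebra.coeff_mul_single_apply, MonoidAlgebra.coeff_single_mul_apply, mul_one, one_mul]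
    by_cases hg : y⁻¹ * g ∈ C
    · congr 1
      have h2 := ((hmemC _).1 hg).2
      have h3 : y * (y⁻¹ * g) = (y⁻¹ * g) * y := h2.eq
      rw [mul_inv_cancel_left] at h3
      conv_rhs => rw [h3]
      group
    · rw [coeff_incH_of_not_mem _ hg, coeff_incH_of_not_mem]
      intro hg2
      apply hg
      have h2 := ((hmemC _).1 hg2).2
      have h3 : y * (g * y⁻¹) = (g * y⁻¹) * y := h2.eq
      have h4 : y⁻¹ * g = g * y⁻¹ := by
        rw [inv_mul_eq_iff_eq_mul, h3]; group
      rw [h4]; exact hg2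
  have hbb : b * b = b := by
    rw [hb, ← map_mul, eB_mul_eB, Set.inter_self]
  have haa : a * a = a := by
    rw [ha, ← map_mul, eB_mul_eB, Set.inter_self]
  have hab : a * b = b * a := center_comm hac b
  have hFa : InF M y a := inF_of_center hla hac
  have hFb : InF M y b := ⟨hlb, hby⟩
  have hJab : InJ M y (a - b) := by
    intro g hg
    rw [MonoidAlgebra.coeff_sub, Finsupp.sub_apply]
    by_cases hgO : g ∈ O
    · have hgC : g ∈ C := (hmemC g).2 ⟨hgO, hg⟩
      have h2 := h1 ⟨g, hgC⟩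
      rw [MonoidAlgebra.coeff_sub, Finsupp.sub_apply, coeff_pull] at h2
      have h3 : a.coeff g = (eB {θ} : GA O).coeff ⟨g, hgO⟩ := coeff_incH_coe (eB {θ}) ⟨g, hgO⟩
      have h4 : b.coeff g = (eB {φ} : GA C).coeff ⟨g, hgC⟩ := coeff_incH_coe (eB {φ}) ⟨g, hgC⟩
      rw [h3, h4]
      exact h2
    · rw [coeff_incH_of_not_mem _ hgO, coeff_incH_of_not_mem _ (fun h2 => hgO (hCO h2)), sub_zero]
      exact idl_zero
  set j : GA G := a * (1 - b) with hj
  have hjF : InF M y j := inF_mul hFa (inF_sub inF_one hFb)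
  have hjj : j * j = j := by
    rw [hj]
    have e : a * (1 - b) * (a * (1 - b)) = (a * a) * ((1 - b) * (1 - b)) + a * ((a * b - b * a)) * (1 - b) := by
      noncomm_ring
    rw [e, haa, hab, sub_self, mul_zero, zero_mul, add_zero]
    congr 1
    have e2 : (1 - b) * (1 - b) = 1 - b - b + b * b := by noncomm_ring
    rw [e2, hbb]; abel
  have hjx : Commute j (single x 1) :=
    Commute.mul_left (center_comm hac _) (Commute.sub_left (Commute.one_left _) hbx)
  have hJ : InJ M y j := by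
    have e : j = (a - b) - (a - b) * b := by
      rw [hj, sub_mul, hbb]; noncomm_ring
    rw [e]
    have hu : y ^ p ^ k = 1 := by rw [← hy]; exact pow_orderOf_eq_one y
    exact inJ_sub hJab (inJ_mul_right hM hu (inF_sub hFa hFb) hFb hJab)
  have hu : y ^ p ^ k = 1 := by rw [← hy]; exact pow_orderOf_eq_one y
  have hxo : x ^ orderOf x = 1 := pow_orderOf_eq_one x
  have hxp : ¬ p ∣ orderOf x := fun h2 => hpC (h2.trans (by
    have := orderOf_dvd_natCard (⟨x, hx⟩ : C)
    rwa [Subgroup.orderOf_mk] at this))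
  have h2 := lin_eq_zero hM hu hxo hxp hyx hjF hjj hjx hJ χ.2.isClassFunction
  have h3 : single (y * x) (1 : ℂ) * j = single (y * x) 1 * a - single (y * x) 1 * b * a := by
    rw [hj, mul_sub, mul_one, mul_sub, hab, ← mul_assoc]
  rw [h3, lin_sub, lin_mul_incH_eB hθ hχ, lin_mul_incH_eB hθ hχ, sub_eq_zero, lin_single, one_mul] at h2
  exact h2.symm

end value

variable {G : Type u} [Group G]

/-- critical configuration -/
structure CritO (p : ℕ) (H O : Subgroup G) : Prop where
  ec : EC p H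
  no : O.Normal
  pO : ¬ p ∣ Nat.card O
  sup : O ⊔ H = ⊤
  quot : ∀ K : Subgroup G, K.Normal → K ≠ ⊥ → normalizer (H : Set G) ≤ K ⊔ H
  sub : ∀ y ∈ H, y ≠ 1 → ∃ T : Subgroup G, H ≤ T ∧ T ≤ centralizer ({y} : Set G) ∧
    (∀ c, Commute y c → ∀ t ∈ T, c * t * c⁻¹ ∈ T) ∧ T ⊓ normalizer (H : Set G) = H

section crit

variable [Finite G] {p : ℕ} [hp : Fact p.Prime] {M : Ideal AlgInt} {H O : Subgroup G}

theorem CritO.inf (hC : CritO p H O) : O ⊓ H = ⊥ := by
  rw [eq_bot_iff]
  intro x hx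
  obtain ⟨k, hk⟩ := exists_order hC.ec hx.2
  have h1 : orderOf x ∣ Nat.card O := by
    have := orderOf_dvd_natCard (⟨x, hx.1⟩ : O)
    rwa [Subgroup.orderOf_mk] at this
  rw [hk] at h1
  rcases Nat.eq_zero_or_pos k with rfl | hk0
  · rw [pow_zero, orderOf_eq_one_iff] at hk
    rw [hk]; exact one_mem _
  · exact absurd ((dvd_pow_self p hk0.ne').trans h1) hC.pO

theorem CritO.exists_mul (hC : CritO p H O) (g : G) : ∃ o ∈ O, ∃ h ∈ H, o * h = g := by
  have := hC.no
  have h1 : g ∈ O ⊔ H := by rw [hC.sup]; trivial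
  exact mem_sup_of_normal_left.1 h1

/-- elements of `O` normalizing `H` centralize it -/
theorem CritO.comm_of_norm (hC : CritO p H O) {o : G} (ho : o ∈ O) (hn : o ∈ normalizer (H : Set G))
    {h : G} (hh : h ∈ H) : Commute o h := by
  have h1 : o * h * o⁻¹ * h⁻¹ ∈ O ⊓ H := by
    refine ⟨?_, H.mul_mem (((mem_normalizer_iff.1 hn) h).1 hh) (H.inv_mem hh)⟩
    have h2 := hC.no.conj_mem o⁻¹ (inv_mem ho) h
    have e : o * h * o⁻¹ * h⁻¹ = o * (h * o⁻¹ * h⁻¹) := by group
    rw [e]
    exact mul_mem ho h2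
  rw [hC.inf, mem_bot] at h1
  have h2 := mul_inv_eq_one.1 h1
  exact mul_inv_eq_iff_eq_mul.1 h2

/-- the normalizer of `H` centralizes `H` -/
theorem CritO.comm_norm (hC : CritO p H O) {n : G} (hn : n ∈ normalizer (H : Set G))
    {h : G} (hh : h ∈ H) : n * h * n⁻¹ = h := by
  obtain ⟨o, ho, h', hh', rfl⟩ := hC.exists_mul n
  have h1 : o ∈ normalizer (H : Set G) := by
    have h2 := mul_mem hn (inv_mem (le_normalizer hh'))
    rwa [mul_inv_cancel_right] at h2
  have h2 := hC.comm_of_norm ho h1 hh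
  have h3 := hC.ec.comm hh' hh
  calc o * h' * h * (o * h')⁻¹ = o * (h' * h) * h'⁻¹ * o⁻¹ := by group
    _ = o * (h * h') * h'⁻¹ * o⁻¹ := by rw [h3]
    _ = o * h * o⁻¹ := by group
    _ = h := by rw [h2.eq]; group

theorem CritO.le_of_normal (hC : CritO p H O) {K : Subgroup G} (hK : K.Normal) (hKO : K ≤ O) (hK1 : K ≠ ⊥)
    {c : G} (hc : c ∈ O) (hcn : c ∈ normalizer (H : Set G)) : c ∈ K := by
  have h1 := hC.quot K hK hK1 hcn
  obtain ⟨k, hk, h, hh, rfl⟩ := mem_sup_of_normal_left.1 h1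
  have h2 : h ∈ O ⊓ H := by
    refine ⟨?_, hh⟩
    have := mul_mem (inv_mem (hKO hk)) hc
    rwa [inv_mul_cancel_left] at this
  rw [hC.inf, mem_bot] at h2
  rw [h2, mul_one]; exact hk

/-- if `N_G(H) ≠ H` then nothing in `H` is central -/
theorem CritO.not_central (hC : CritO p H O) (hne : normalizer (H : Set G) ≠ H) {y : G} (hy : y ∈ H)
    (hy1 : y ≠ 1) : y ∉ Subgroup.center G := by
  intro hyc
  have hZc : zpowers y ≤ Subgroup.center G := by rw [zpowers_le]; exact hyc
  haveI hZn : (zpowers y).Normal := ⟨fun z hz g => by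
    have h1 := Subgroup.mem_center_iff.1 (hZc hz) g
    rw [h1]
    simpa using hz⟩
  have h1 := hC.quot (zpowers y) hZn (by rw [Ne, zpowers_eq_bot]; exact hy1)
  rw [sup_eq_right.2 (by rw [zpowers_le]; exact hy)] at h1
  exact hne (le_antisymm h1 le_normalizer)

/-- the elements `s ∈ O_{p'}⟨H, H^g⟩` commuting with `y` lie in the normal closure of `H` in `C(y)` -/
theorem CritO.mem_T (hC : CritO p H O) {y : G} (hy : y ∈ H) {T : Subgroup G} (hHT : H ≤ T)
    (hT : ∀ c, Commute y c → ∀ t ∈ T, c * t * c⁻¹ ∈ T) {g s : G} (hs : s ∈ TT H g) (hys : Commute y s) :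
    s ∈ T := by
  set R := T ⊓ TT H g with hR
  have hHR : H ≤ R := le_inf hHT (le_TT H g)
  have hsR : MulAut.conj s • H ≤ R := by
    intro x hx
    rw [mem_conj_smul] at hx
    have e : s * (s⁻¹ * x * s) * s⁻¹ = x := by group
    refine ⟨?_, ?_⟩
    · have := hT s hys _ (hHT hx)
      rwa [e] at this
    · have := (TT H g).mul_mem ((TT H g).mul_mem hs (le_TT H g hx)) ((TT H g).inv_mem hs)
      rwa [e] at this
  have hE := hC.ec
  have hpc : IsPGroup p (MulAut.conj s • H : Subgroup G) := by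
    obtain ⟨n, hn⟩ := IsPGroup.iff_card.1 hE.pg
    exact IsPGroup.iff_card.2 ⟨n, (card_conj_smul s H).trans hn⟩
  have hi : ∀ K' : Subgroup G, K' ≤ R → Nat.card K' = Nat.card H → ¬ p ∣ K'.relIndex R := by
    intro K' hK' hc hdvd
    apply hE.not_dvd_relIndex g
    have h2 := Cores.card_mul_relIndex (le_TT H g)
    have h3 := Cores.card_mul_relIndex hK'
    have h4 := Cores.card_mul_relIndex (inf_le_right : R ≤ TT H g)
    rw [← h3, hc, ← h2, mul_assoc] at h4
    have h5 := Nat.eq_of_mul_eq_mul_left Nat.card_pos h4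
    rw [← h5]
    exact Dvd.dvd.mul_right hdvd _
  obtain ⟨r, hr, hrH⟩ := sylow_conj_rel hHR hsR hE.pg hpc (hi H hHR rfl)
    (hi _ hsR (card_conj_smul s H))
  have h2 : r⁻¹ * s ∈ H := by
    apply hE.mem_of_normalizer (g := g) ((TT H g).mul_mem ((TT H g).inv_mem hr.2) hs)
    rw [mem_normalizer_iff_conj_smul, conj_smul_mul, ← hrH, ← conj_smul_mul, inv_mul_cancel,
      conj_smul_one]
  have e : s = r * (r⁻¹ * s) := by group
  rw [e]
  exact mul_mem hr.1 (hHT h2)


omit hp in
theorem invariant_of_unique {S : Type w} [Group S] [Finite S] {act : S →* MulAut G} {C : Type u} [Group C]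
    [Finite C] [Fintype C] {ι : C →* G} (D : Data p M act ι) {θ : IrrCharacter G} {φ : IrrCharacter C}
    (hθ : Inv act (θ : G → ℂ)) (h : ¬ p ∣ mult ι θ φ) (σ : MulAut C)
    (hσ : ∀ c, (θ : G → ℂ) (ι (σ c)) = (θ : G → ℂ) (ι c)) (c : C) :
    (φ : C → ℂ) (σ c) = (φ : C → ℂ) c := by
  have h1 : mult ι θ (tw σ φ) = mult ι θ φ := by
    apply mult_eq
    rw [← mult_spec]
    have h2 : (fun c : C => (θ : G → ℂ) (ι c)) =
        fun c : C => (fun c : C => (θ : G → ℂ) (ι c)) (σ c) := by
      funext c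
      exact (hσ c).symm
    conv_lhs => rw [h2]
    exact classInner_comp_equiv (σ : C ≃* C) (fun c => (θ : G → ℂ) (ι c)) (φ : C → ℂ)
  have h2 : tw σ φ = φ := unique_beta D hθ (by rw [h1]; exact h) h
  have h3 := congrArg (fun f : IrrCharacter C => (f : C → ℂ) c) h2
  simp only [tw_apply] at h3
  exact h3

omit hp in
/-- a normal subgroup on which an irreducible character has nonzero sum is in the kernel -/
theorem single_mul_eB {φ : IrrCharacter G} {W : Subgroup G} [hW : W.Normal] [Fintype W]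
    (hne : ∑ w : W, (φ : G → ℂ) w ≠ 0) {s : G} (hs : s ∈ W) :
    single s (1 : ℂ) * eB {φ} = eB {φ} := by
  classical
  letI := Fintype.ofFinite G
  have hker : omega (φ : G → ℂ) (normE W) = 1 := by
    rcases omega_normE_zero_or_one W φ.2 with h0 | h0
    · exfalso
      apply hne
      have h1 : lin (φ : G → ℂ) (normE W) = 0 := by
        rw [omega, div_eq_zero_iff] at h0
        exact h0.resolve_right φ.2.one_ne_zero
      have h2 := lin_normE' (φ : G → ℂ) W
      rw [h1, mul_zero] at h2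
      exact h2.symm
    · exact h0
  have hsE : single s (1 : ℂ) * normE W = normE W := by
    ext c
    rw [MonoidAlgebra.coeff_single_mul_apply, one_mul, coeff_normE, coeff_normE]
    have h3 : s⁻¹ * c ∈ W ↔ c ∈ W := W.mul_mem_cancel_left (W.inv_mem hs)
    simp only [h3]
  have h1 := mul_eB_singleton (normE_mem_center W) φ
  rw [hker, one_smul] at h1
  conv_lhs => rw [← h1, ← mul_assoc, hsE]
  exact h1

theorem CritO.mem_C_iff {y : G} (c : G) :
    c ∈ O ⊓ centralizer (zpowers y : Set G) ↔ c ∈ O ∧ Commute y c := by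
  rw [mem_inf, mem_centralizer_iff]
  refine and_congr_right fun _ => ?_
  constructor
  · intro h1
    exact h1 y (mem_zpowers y)
  · intro h1 z hz
    obtain ⟨n, rfl⟩ := mem_zpowers_iff.1 hz
    exact (h1.zpow_left n).eq

theorem CritO.sum_ne_zero (hC : CritO p H O) (hM : IsPModular p M) {C W : Subgroup G} [Fintype W]
    (hCO : C ≤ O) (hWC : W ≤ C) (hnC : ∀ s ∈ H, ∀ g ∈ C, s * g * s⁻¹ ∈ C)
    (hHW : ∀ s ∈ H, ∀ w ∈ W, s * w * s⁻¹ ∈ W) (hbot : W ⊓ normalizer (H : Set G) = ⊥)
    {φ : IrrCharacter C} (hφinv : Inv (conjAct C H hnC) (φ : C → ℂ)) :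
    ∑ w : W, (φ : C → ℂ) ⟨w, hWC w.2⟩ ≠ 0 := by
  classical
  haveI := BlockRing.isPrime hM
  have hE := hC.ec
  have hpC : ¬ p ∣ Nat.card C := fun h1 => hC.pO (h1.trans (card_dvd_of_le hCO))
  have hpW : ¬ p ∣ Nat.card W := fun h1 => hC.pO (h1.trans (card_dvd_of_le (hWC.trans hCO)))
  have D' := data_conj hHW hM hE.pg hpW (rfl : W ⊓ centralizer (H : Set G) = _) inf_le_left
  set f : W → ℂ := fun w => (φ : C → ℂ) ⟨w, hWC w.2⟩ with hf
  have hfinv : Inv (conjAct W H hHW) f := by
    intro h w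
    exact hφinv h ⟨w, hWC w.2⟩
  letI : Fintype (W ⊓ centralizer (H : Set G) : Subgroup G) := Fintype.ofFinite _
  have hsum := idl_sum_sub D' f hfinv (fun w => loc_irr φ _)
  have hsum2 : ∑ c : (W ⊓ centralizer (H : Set G) : Subgroup G), f (Subgroup.inclusion inf_le_left c) =
      (φ : C → ℂ) 1 := by
    rw [Finset.sum_eq_single (1 : (W ⊓ centralizer (H : Set G) : Subgroup G))]
    · rfl
    · intro b _ hb
      exfalso
      apply hb
      apply Subtype.ext
      have h1 : (b : G) ∈ W ⊓ normalizer (H : Set G) := ⟨b.2.1, centralizer_le_normalizer _ b.2.2⟩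
      rw [hbot, mem_bot] at h1
      exact h1
    · intro h; exact absurd (Finset.mem_univ _) h
  rw [hsum2] at hsum
  intro h0
  rw [h0, zero_sub, idl_neg_iff] at hsum
  obtain ⟨n, hn, hnd⟩ := charDegree_eq φ
  rw [hn, idl_natCast_iff hM] at hsum
  exact hpC (hsum.trans hnd)

/-- The values of an extension of a `G`-invariant character of `O` on the section of `y`. -/
theorem CritO.val (hC : CritO p H O) (hM : IsPModular p M) [O.Normal] {θ : IrrCharacter O}
    (hθ : ∀ g : G, cj O g (θ : O → ℂ) = θ) {χ : IrrCharacter G}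
    (hχ : ∀ x : O, (χ : G → ℂ) x = (θ : O → ℂ) x) {y : G} (hy : y ∈ H) {T : Subgroup G}
    (hTc : T ≤ centralizer ({y} : Set G)) (hT : ∀ c, Commute y c → ∀ t ∈ T, c * t * c⁻¹ ∈ T)
    (hTn : T ⊓ normalizer (H : Set G) = H) {s : G} (hs : s ∈ T) (hsO : s ∈ O) :
    (χ : G → ℂ) (y * s) = (χ : G → ℂ) y := by
  classical
  have hE := hC.ec
  obtain ⟨k, hk⟩ := exists_order hE hy
  set C : Subgroup G := O ⊓ centralizer (zpowers y : Set G) with hCdef
  have hCO : C ≤ O := inf_le_left
  letI : Fintype C := Fintype.ofFinite _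
  have hmemC : ∀ c, c ∈ C ↔ c ∈ O ∧ Commute y c := CritO.mem_C_iff
  have hnorm : ∀ s ∈ zpowers y, ∀ g ∈ O, s * g * s⁻¹ ∈ O := fun s _ g hg => hC.no.conj_mem g hg s
  have hS : IsPGroup p (zpowers y) := hE.pg.to_le (by rw [zpowers_le]; exact hy)
  have D := data_conj hnorm hM hS hC.pO hCdef hCO
  have hinv : Inv (conjAct O (zpowers y) hnorm) (θ : O → ℂ) := by
    rw [inv_conjAct_iff]
    intro s _ g g' hg'
    have := congrFun (hθ s) g
    rw [Clifford.cj_apply] at this
    exact (congrArg (θ : O → ℂ) (Subtype.ext hg')).trans this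
  obtain ⟨φ, hφ⟩ := exists_beta D θ
  -- `φ` is `H`-invariant
  have hnC : ∀ s ∈ H, ∀ g ∈ C, s * g * s⁻¹ ∈ C := by
    intro s hs g hg
    rw [hmemC] at hg ⊢
    refine ⟨hC.no.conj_mem g hg.1 s, ?_⟩
    have h1 : Commute y s := hE.comm hy hs
    exact (h1.mul_right hg.2).mul_right h1.inv_right
  have hφinv : Inv (conjAct C H hnC) (φ : C → ℂ) := by
    intro h c
    apply invariant_of_unique D hinv hφ
    intro c
    have h3 := congrFun (hθ (h : G)) (Subgroup.inclusion hCO c)
    rw [Clifford.cj_apply] at h3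
    rw [← h3]
    rfl
  -- the subgroup `W = T ∩ O`
  set W : Subgroup G := T ⊓ O with hW
  letI : Fintype W := Fintype.ofFinite _
  have hWC : W ≤ C := by
    intro w hw
    rw [hmemC]
    refine ⟨hw.2, ?_⟩
    have := hTc hw.1
    rw [mem_centralizer_singleton_iff] at this
    exact this.symm
  have hWn : ∀ c ∈ C, ∀ w ∈ W, c * w * c⁻¹ ∈ W := fun c hc w hw =>
    ⟨hT c ((hmemC c).1 hc).2 w hw.1, hC.no.conj_mem w hw.2 c⟩
  have hHW : ∀ s ∈ H, ∀ w ∈ W, s * w * s⁻¹ ∈ W := fun s hs w hw =>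
    ⟨hT s (hE.comm hy hs) w hw.1, hC.no.conj_mem w hw.2 s⟩
  have hbot : W ⊓ normalizer (H : Set G) = ⊥ := by
    rw [eq_bot_iff]
    intro w hw
    have h1 : w ∈ T ⊓ normalizer (H : Set G) := ⟨hw.1.1, hw.2⟩
    rw [hTn] at h1
    have h2 : w ∈ O ⊓ H := ⟨hw.1.2, h1⟩
    rwa [hC.inf] at h2
  have hne := hC.sum_ne_zero hM hCO hWC hnC hHW hbot hφinv
  set W' : Subgroup C := W.subgroupOf C with hW'
  haveI hW'n : W'.Normal := ⟨fun w hw c => mem_subgroupOf.2 (hWn c c.2 w (mem_subgroupOf.1 hw))⟩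
  letI : Fintype W' := Fintype.ofFinite _
  have hs1 : (⟨s, hWC ⟨hs, hsO⟩⟩ : C) ∈ W' := mem_subgroupOf.2 ⟨hs, hsO⟩
  have hne' : ∑ w : W', (φ : C → ℂ) w ≠ 0 := by
    rw [Fintype.sum_equiv (subgroupOfEquivOfLe hWC).toEquiv (fun w : W' => (φ : C → ℂ) w)
      (fun w : W => (φ : C → ℂ) ⟨w, hWC w.2⟩) (fun w => rfl)]
    exact hne
  have hsφ := single_mul_eB hne' hs1
  have h1 := section_value hM hC.pO hθ hχ hk hCdef hCO hφ (hWC ⟨hs, hsO⟩)
  have h2 := section_value hM hC.pO hθ hχ hk hCdef hCO hφ (one_mem C)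
  rw [mul_one] at h2
  rw [← h1, ← h2]
  congr 1
  have h3 : single (y * s) (1 : ℂ) = single y 1 * incH C (single ⟨s, hWC ⟨hs, hsO⟩⟩ 1) := by
    rw [incH_single, MonoidAlgebra.single_mul_single, one_mul]
  rw [h3, mul_assoc, ← map_mul, hsφ]

omit hp in
theorem exists_irr_ne_triv {g : G} (hg : g ≠ 1) : ∃ χ : IrrCharacter G, χ ≠ triv G := by
  classical
  by_contra hno
  push Not at hno
  have h1 := CharBasic.column_orthogonality g (1 : G)
  have h2 : ¬ IsConj g (1 : G) := by
    intro h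
    apply hg
    obtain ⟨c, hc⟩ := isConj_iff.1 h.symm
    rw [← hc]; simp
  rw [if_neg h2] at h1
  have h3 : (Finset.univ : Finset (IrrCharacter G)) = {triv G} := by
    ext χ; simp [hno χ]
  rw [h3, Finset.sum_singleton] at h1
  simp [coe_triv] at h1

theorem CritO.exists_theta (hC : CritO p H O) (hM : IsPModular p M) [O.Normal]
    (hne : normalizer (H : Set G) ≠ H) : ∃ θ : IrrCharacter O, (∀ g : G, cj O g (θ : O → ℂ) = θ) ∧
      ∃ c : O, (c : G) ∈ normalizer (H : Set G) ∧ (θ : O → ℂ) c ≠ (θ : O → ℂ) 1 := by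
  classical
  have hE := hC.ec
  have hnorm : ∀ s ∈ H, ∀ g ∈ O, s * g * s⁻¹ ∈ O := fun s _ g hg => hC.no.conj_mem g hg s
  set C : Subgroup G := O ⊓ centralizer (H : Set G) with hCdef
  have hCO : C ≤ O := inf_le_left
  letI : Fintype C := Fintype.ofFinite _
  have D := data_conj hnorm hM hE.pg hC.pO hCdef hCO
  obtain ⟨c, hc1⟩ : ∃ c : C, c ≠ 1 := by
    by_contra hno
    push Not at hno
    apply hne
    apply le_antisymm _ le_normalizer
    intro n hn
    obtain ⟨o, ho, h', hh', rfl⟩ := hC.exists_mul n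
    have h1 : o ∈ normalizer (H : Set G) := by
      have h2 := mul_mem hn (inv_mem (le_normalizer hh'))
      rwa [mul_inv_cancel_right] at h2
    have h2 : o ∈ C := by
      refine mem_inf.2 ⟨ho, ?_⟩
      rw [mem_centralizer_iff]
      intro h hh
      exact (hC.comm_of_norm ho h1 hh).eq.symm
    have h3 := congrArg Subtype.val (hno ⟨o, h2⟩)
    change o = 1 at h3
    rw [h3, one_mul]
    exact hh'
  obtain ⟨β, hβ⟩ := exists_irr_ne_triv hc1
  obtain ⟨θ, hθ, hm⟩ := exists_chi D β
  refine ⟨θ, ?_, ?_⟩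
  · intro g
    obtain ⟨o, ho, h, hh, rfl⟩ := hC.exists_mul g
    rw [inv_conjAct_iff] at hθ
    rw [← cj_cj, cj_of_mem θ.2.isClassFunction ho]
    funext n
    rw [Clifford.cj_apply]
    exact hθ h hh n _ rfl
  · by_contra hno
    push Not at hno
    apply hm
    have h1 : mult (Subgroup.inclusion hCO) θ β = 0 := by
      apply mult_eq
      have h2 : (fun c : C => (θ : O → ℂ) (Subgroup.inclusion hCO c)) =
          ((θ : O → ℂ) 1) • ((triv C : IrrCharacter C) : C → ℂ) := by
        funext c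
        rw [hno _ (centralizer_le_normalizer _ c.2.2)]
        simp [coe_triv]
      rw [h2, classInner_smul_left]
      have h3 : classInner ((triv C : IrrCharacter C) : C → ℂ) (β : C → ℂ) = 0 := by
        exact IsIrrCharacter.classInner_eq_zero (triv C).2 β.2 (fun h => hβ (Subtype.ext h.symm))
      rw [h3, mul_zero, Nat.cast_zero]
    rw [h1]
    exact dvd_zero _

theorem CritO.coprime_index (hC : CritO p H O) [O.Normal] : Nat.Coprime O.index (Nat.card O) := by
  have h1 : Nat.card (O ⊔ H : Subgroup G) = Nat.card O * Nat.card H := by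
    apply card_sup_of_disjoint
    · rw [normalizer_eq_top]; exact le_top
    · rw [disjoint_iff]; exact hC.inf
  rw [hC.sup, Subgroup.card_top] at h1
  have h2 := O.card_mul_index
  rw [h1] at h2
  rw [Nat.eq_of_mul_eq_mul_left Nat.card_pos h2]
  obtain ⟨n, hn⟩ := IsPGroup.iff_card.1 hC.ec.pg
  rw [hn]
  exact Nat.Coprime.pow_left _ ((hp.out.coprime_iff_not_dvd).2 hC.pO)

theorem CritO.mem_O (hC : CritO p H O) {g o : G} (ho : o ∈ OO p H g) : o ∈ O := by
  have := hC.no
  apply mem_of_coprime hC.ec.pg (by rw [normalizer_eq_top]; exact le_top) _ (coprime_orderOf ho)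
  rw [hC.sup]; trivial

/-- `g v g⁻¹ = o v` -/
theorem CritO.conj_eq (hC : CritO p H O) (g : G) {v : G} (hv : v ∈ H) :
    ∃ o ∈ OO p H g, g * v * g⁻¹ = o * v := by
  obtain ⟨o, ho, h1⟩ := hC.ec.exists_conj_eq g hv
  refine ⟨o, ho, ?_⟩
  rw [h1, hC.comm_norm (hC.ec.nn_mem g) hv]

theorem CritO.prod (hC : CritO p H O) (hM : IsPModular p M) [O.Normal] {θ : IrrCharacter O}
    (hθ : ∀ g : G, cj O g (θ : O → ℂ) = θ) {χ : IrrCharacter G}
    (hχ : ∀ x : O, (χ : G → ℂ) x = (θ : O → ℂ) x) {v x : G} (hv : v ∈ H) (hx : x ∈ H) (h1 : v * x ≠ 1) :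
    (χ : G → ℂ) v * (χ : G → ℂ) x = (χ : G → ℂ) 1 * (χ : G → ℂ) (v * x) := by
  classical
  letI := Fintype.ofFinite G
  have hE := hC.ec
  have hyH : v * x ∈ H := mul_mem hv hx
  obtain ⟨T, hHT, hTc, hTn, hTN⟩ := hC.sub (v * x) hyH h1
  have key : ∀ g : G, (χ : G → ℂ) (g * v * g⁻¹ * x) = (χ : G → ℂ) (v * x) := by
    intro g
    obtain ⟨o, ho, h2⟩ := hC.conj_eq g hv
    obtain ⟨c, hc, s, hs, hys, hcs⟩ := hE.exists_conj_coprime ho hyH
    have h3 : (χ : G → ℂ) (g * v * g⁻¹ * x) = (χ : G → ℂ) (v * x * s) := by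
      rw [← hcs, χ.2.isClassFunction, h2, mul_assoc]
    rw [h3]
    exact hC.val hM hθ hχ hyH hTc hTn hTN (hC.mem_T hyH hHT hTn (OO_le_TT p H g hs) hys) (hC.mem_O hs)
  have h2 := lin_sum_conj χ.2 (single v 1) (single x 1)
  have h3 : ∀ g : G, lin (χ : G → ℂ) (single g 1 * single v 1 * single g⁻¹ 1 * single x 1) =
      (χ : G → ℂ) (v * x) := by
    intro g
    rw [MonoidAlgebra.single_mul_single, MonoidAlgebra.single_mul_single,
      MonoidAlgebra.single_mul_single, lin_single, one_mul, one_mul, one_mul, one_mul, key]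
  simp only [h3, Finset.sum_const, Finset.card_univ, nsmul_eq_mul, lin_single, one_mul,
    ← Nat.card_eq_fintype_card] at h2
  have h4 : (Nat.card G : ℂ) ≠ 0 := by exact_mod_cast Nat.card_pos.ne'
  have h5 := χ.2.one_ne_zero
  rw [mul_assoc, mul_div_assoc] at h2
  have h6 := mul_left_cancel₀ h4 h2
  rw [h6]
  field_simp

theorem CritO.normalizer_eq (hC : CritO p H O) (hM : IsPModular p M) [O.Normal] (hp2 : p ≠ 2)
    (hH : H ≠ ⊥) : normalizer (H : Set G) = H := by
  classical
  by_contra hne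
  have hE := hC.ec
  obtain ⟨θ, hθ, c, hcn, hc⟩ := hC.exists_theta hM hne
  obtain ⟨χ₀, hχ₀, hχθ⟩ := H76Ext.exists_extension_of_coprime_card O θ.2 hθ hC.coprime_index
  set χ : IrrCharacter G := ⟨χ₀, hχ₀⟩ with hχdef
  have hχ : ∀ x : O, (χ : G → ℂ) x = (θ : O → ℂ) x := hχθ
  have hK : kerS χ.2.isCharacter ⊓ O = ⊥ := by
    by_contra hK
    have hn : (kerS χ.2.isCharacter ⊓ O).Normal := by
      have := kerS_normal χ.2.isCharacter
      infer_instance
    have h1 := hC.le_of_normal hn inf_le_right hK c.2 hcn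
    apply hc
    rw [← hχ, ← hχ]
    exact h1.1
  obtain ⟨x, hx, hx1⟩ : ∃ x, x ∈ H ∧ x ≠ 1 := by
    by_contra hno
    push Not at hno
    exact hH (eq_bot_iff.2 fun x hx => mem_bot.2 (hno x hx))
  obtain ⟨k, hk⟩ := exists_order hE hx
  have hk0 : k ≠ 0 := by
    rintro rfl
    rw [pow_zero, orderOf_eq_one_iff] at hk
    exact hx1 hk
  have hp3 : 3 ≤ p := by
    have := hp.out.two_le
    omega
  have hn3 : 3 ≤ orderOf x := by
    rw [hk]
    exact hp3.trans (Nat.le_self_pow hk0 p)
  have h0 := χ.2.one_ne_zero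
  obtain ⟨d, hd0, hd⟩ := χ.2.exists_degree
  have hxne : (χ : G → ℂ) x ≠ 0 := by
    intro h
    have h1 : x ^ p ^ k = 1 := by rw [← hk]; exact pow_orderOf_eq_one x
    have h2 := CharNorm.dvd_of_apply_eq_zero χ.2.isCharacter hp.out h1 h hd
    have h3 : (θ : O → ℂ) 1 = (d : ℂ) := by rw [← hχ]; exact hd
    exact hC.pO (h2.trans (CharApps.irr_degree_dvd_card θ.2 h3))
  set f : G → ℂ := fun g => (χ : G → ℂ) g / (χ : G → ℂ) 1 with hf
  have hprod : ∀ v ∈ H, ∀ w ∈ H, v * w ≠ 1 → f v * f w = f (v * w) := by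
    intro v hv w hw hvw
    have := hC.prod hM hθ hχ hv hw hvw
    simp only [hf]
    rw [div_mul_div_comm, this]
    field_simp
  have hpow : ∀ i, i < orderOf x → f (x ^ i) = f x ^ i := by
    intro i
    induction i with
    | zero => intro _; simp only [hf, pow_zero]; exact div_self h0
    | succ i ih =>
      intro hi
      rw [pow_succ, pow_succ, ← ih (by omega)]
      refine (hprod _ (pow_mem hx i) _ hx ?_).symm
      rw [← pow_succ]
      exact pow_ne_one_of_lt_orderOf (by omega) hi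
  have hinv : x ^ (orderOf x - 1) = x⁻¹ := by
    rw [eq_comm, inv_eq_iff_mul_eq_one, ← pow_succ']
    rw [Nat.sub_add_cancel (by omega)]
    exact pow_orderOf_eq_one x
  have h1 := hpow (orderOf x - 1) (by omega)
  rw [hinv] at h1
  have h2 : ‖f x⁻¹‖ = ‖f x‖ := by
    simp only [hf]
    rw [χ.2.inv, norm_div, norm_div, Complex.norm_conj]
  rw [h1, norm_pow] at h2
  have hfx : ‖f x‖ ≠ 0 := by
    rw [norm_ne_zero_iff]
    exact div_ne_zero hxne h0
  have h3 : ‖f x‖ ^ (orderOf x - 2) = 1 := by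
    have e : orderOf x - 1 = (orderOf x - 2) + 1 := by omega
    rw [e, pow_succ] at h2
    exact mul_right_cancel₀ hfx (by rw [h2, one_mul])
  have h4 : ‖f x‖ = 1 := (pow_eq_one_iff_of_nonneg (norm_nonneg _) (by omega)).1 h3
  have h5 : ‖(χ : G → ℂ) x‖ = ‖(χ : G → ℂ) 1‖ := by
    simp only [hf] at h4
    rw [norm_div] at h4
    exact (div_eq_one_iff_eq (norm_ne_zero_iff.2 h0)).1 h4
  apply hC.not_central hne hx hx1
  rw [Subgroup.mem_center_iff]
  intro g
  have h6 : g * x * g⁻¹ * x⁻¹ ∈ kerS χ.2.isCharacter ⊓ O := by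
    refine ⟨char_comm_of_norm χ.2.isCharacter h5 g, ?_⟩
    obtain ⟨o, ho, h7⟩ := hC.conj_eq g hx
    rw [h7, mul_inv_cancel_right]
    exact hC.mem_O ho
  rw [hK, mem_bot, mul_inv_eq_one, mul_inv_eq_iff_eq_mul] at h6
  exact h6

end crit

/-- The normal closure of an extremely closed abelian `p`-subgroup, `p` odd. -/
theorem normalClosure_inf (p : ℕ) [hp : Fact p.Prime] (hp2 : p ≠ 2) (n : ℕ) :
    ∀ (G : Type u) [Group G] [Finite G], Nat.card G = n → ∀ H : Subgroup G, EC p H →
      normalClosure (H : Set G) ⊓ normalizer (H : Set G) = H := by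
  induction n using Nat.strong_induction_on with
  | _ n ih =>
  intro G _ _ hn H hE
  set L := normalClosure (H : Set G) with hL
  have hHL : H ≤ L := subset_normalClosure
  apply le_antisymm _ (le_inf hHL le_normalizer)
  have hle : ∀ (N : Subgroup G), (∀ g : G, ∀ h ∈ H, g * h * g⁻¹ ∈ N) → L ≤ N := by
    intro N hN
    rw [hL, Subgroup.normalClosure, Subgroup.closure_le]
    intro x hx
    obtain ⟨h, hh, hc⟩ := Group.mem_conjugatesOfSet_iff.1 hx
    obtain ⟨g, rfl⟩ := isConj_iff.1 hc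
    exact hN g h hh
  by_cases hLt : L = ⊤
  swap
  · -- induction in `L`
    have h1 := ih _ (hn ▸ ZStar.card_lt_of_ne_top hLt) L rfl (H.subgroupOf L) (ec_subgroup hE hHL)
    set R := normalClosure ((H.subgroupOf L : Subgroup L) : Set L) with hR
    have h2 : L ≤ R.map L.subtype := by
      apply hle
      intro g h hh
      have hkL : kk hE g ∈ L := by
        have h3 := OO_le_TT p H g (hE.kk_mem g)
        have h4 : TT H g ≤ L := by
          apply sup_le hHL
          rintro _ ⟨x, hx, rfl⟩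
          exact (normalClosure_normal (s := (H : Set G))).conj_mem x (hHL hx) g
        exact h4 h3
      have h3 : g * h * g⁻¹ ∈ MulAut.conj g • H := ⟨h, hh, rfl⟩
      rw [← hE.kk_conj g] at h3
      obtain ⟨h', hh', h4⟩ := h3
      have h5 : kk hE g * h' * (kk hE g)⁻¹ = g * h * g⁻¹ := h4
      rw [← h5]
      have h6 : (⟨h', hHL hh'⟩ : L) ∈ R := subset_normalClosure (mem_subgroupOf.2 hh')
      have h7 := (normalClosure_normal (s := ((H.subgroupOf L : Subgroup L) : Set L))).conj_mem _ h6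
        ⟨kk hE g, hkL⟩
      exact ⟨_, h7, rfl⟩
    rintro x ⟨hxL, hxn⟩
    have hxn' : x ∈ normalizer (H : Set G) := hxn
    obtain ⟨x', hx', rfl⟩ := h2 hxL
    have h3 : x' ∈ R ⊓ normalizer ((H.subgroupOf L : Subgroup L) : Set L) := by
      refine ⟨hx', ?_⟩
      show x' ∈ normalizer ((H.subgroupOf L : Subgroup L) : Set L)
      rw [mem_normalizer_iff] at hxn' ⊢
      intro h
      exact hxn' h
    rw [h1] at h3
    exact mem_subgroupOf.1 h3
  · rw [hLt, top_inf_eq]
    by_cases hH : H = ⊥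
    · subst hH
      have : (⊤ : Subgroup G) = ⊥ := by
        rw [← hLt, hL]
        exact normalClosure_eq_self ⊥
      rw [← this]; exact le_top
    have hOn := pPrimeCore_normal p G
    by_contra hne
    have hquot : ∀ K : Subgroup G, K.Normal → K ≠ ⊥ → normalizer (H : Set G) ≤ K ⊔ H := by
      intro K hK hKb
      haveI := hK
      have h1 := ih _ (hn ▸ ZStar.card_quotient_lt hKb) (G ⧸ K) rfl (H.map (QuotientGroup.mk' K))
        (ec_quotient hE K)
      have h2 : normalClosure ((H.map (QuotientGroup.mk' K) : Subgroup (G ⧸ K)) : Set (G ⧸ K)) = ⊤ := by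
        have h3 := Subgroup.map_normalClosure (H : Set G) (QuotientGroup.mk' K)
          (QuotientGroup.mk'_surjective K)
        rw [Subgroup.coe_map, ← h3, ← hL, hLt]
        rw [← MonoidHom.range_eq_map, MonoidHom.range_eq_top]
        exact QuotientGroup.mk'_surjective K
      rw [h2, top_inf_eq] at h1
      intro x hx
      have h3 : QuotientGroup.mk' K x ∈ normalizer ((H.map (QuotientGroup.mk' K) : Subgroup (G ⧸ K)) : Set (G ⧸ K)) := by
        have h4 := Subgroup.le_normalizer_map (H := H) (QuotientGroup.mk' K)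
        exact h4 ⟨x, hx, rfl⟩
      rw [h1] at h3
      obtain ⟨h, hh, h4⟩ := h3
      have h5 : h⁻¹ * x ∈ K := QuotientGroup.eq.1 h4
      have e : x = h * (h⁻¹ * x) := by group
      rw [e]
      exact mul_mem (mem_sup_right hh) (mem_sup_left h5)
    have hcrit : CritO p H (pPrimeCore p G) := by
      refine ⟨hE, hOn, ?_, ?_, hquot, ?_⟩
      · rw [← hp.out.coprime_iff_not_dvd, Nat.coprime_comm]
        exact Cores.coprime_card_pPrimeCore p G
      · rw [← hLt, eq_comm]
        apply le_antisymm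
        · apply hle
          intro g h hh
          exact good p (fun h => absurd h hp2) _ G rfl H hE g h hh
        · rw [hLt]; exact le_top
      · intro y hy hy1
        set Ly := centralizer ({y} : Set G) with hLy
        have hmemL : ∀ c, c ∈ Ly ↔ Commute y c := by
          intro c
          rw [hLy, mem_centralizer_singleton_iff]
          exact ⟨fun h => h.symm, fun h => h.symm⟩
        have hHLy : H ≤ Ly := fun x hx => (hmemL x).2 (hE.comm hy hx)
        have hLyt : Ly ≠ ⊤ := by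
          intro htop
          have hyc : y ∈ Subgroup.center G := by
            rw [Subgroup.mem_center_iff]
            intro g
            have : g ∈ Ly := by rw [htop]; trivial
            exact ((hmemL g).1 this).eq.symm
          have hZc : zpowers y ≤ Subgroup.center G := by rw [zpowers_le]; exact hyc
          have hZn : (zpowers y).Normal := ⟨fun z hz g => by
            have h1 := Subgroup.mem_center_iff.1 (hZc hz) g
            rw [h1]
            simpa using hz⟩
          have h1 := hquot (zpowers y) hZn (by rw [Ne, zpowers_eq_bot]; exact hy1)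
          rw [sup_eq_right.2 (by rw [zpowers_le]; exact hy)] at h1
          exact hne h1
        have h1 := ih _ (hn ▸ ZStar.card_lt_of_ne_top hLyt) Ly rfl (H.subgroupOf Ly) (ec_subgroup hE hHLy)
        set R := normalClosure ((H.subgroupOf Ly : Subgroup Ly) : Set Ly) with hR
        refine ⟨R.map Ly.subtype, ?_, map_subtype_le _, ?_, ?_⟩
        · intro x hx
          exact ⟨⟨x, hHLy hx⟩, subset_normalClosure (mem_subgroupOf.2 hx), rfl⟩
        · rintro c hc _ ⟨t, ht, rfl⟩
          have h7 := (normalClosure_normal (s := ((H.subgroupOf Ly : Subgroup Ly) : Set Ly))).conj_mem _ ht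
            ⟨c, (hmemL c).2 hc⟩
          exact ⟨_, h7, rfl⟩
        · apply le_antisymm
          · rintro _ ⟨⟨x', hx', rfl⟩, hxn⟩
            have hxn' : (x' : G) ∈ normalizer (H : Set G) := hxn
            have h3 : x' ∈ R ⊓ normalizer ((H.subgroupOf Ly : Subgroup Ly) : Set Ly) := by
              refine ⟨hx', ?_⟩
              show x' ∈ normalizer ((H.subgroupOf Ly : Subgroup Ly) : Set Ly)
              rw [mem_normalizer_iff] at hxn' ⊢
              intro h
              exact hxn' h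
            rw [h1] at h3
            exact mem_subgroupOf.1 h3
          · apply le_inf _ le_normalizer
            intro x hx
            exact ⟨⟨x, hHLy hx⟩, subset_normalClosure (mem_subgroupOf.2 hx), rfl⟩
    obtain ⟨M, hM⟩ := H76Char.exists_isPModular p
    exact hne (hcrit.normalizer_eq hM hp2 hH).le

end Cfsg.Agent.Lib.ExtClosedOdd
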