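import Mathlib
import Cfsg.Agent.Lib.ExtPrim
import Cfsg.Agent.Lib.MinFactor
import Cfsg.Agent.Lib.CentMax

/-!
The diagonal case for extremely primitive groups.
-/

set_option autoImplicit false

namespace Cfsg.Agent.Lib.ExtPrim

open MulAction
open scoped Pointwise
open Cfsg.Agent.Lib.MinFactor Cfsg.Agent.Lib.CentMax

variable {G : Type*} [Group G] {Ω : Type*} [MulAction G Ω]

/-- two-point stabilizers are maximal in one-point stabilizers -/
theorem stab2_coatom [Finite G] [Finite Ω] [FaithfulSMul G Ω] (hprim : IsPreprimitive G Ω)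
    (hH : ∀ α : Ω, stabilizer G α ≠ ⊥)
    (hep : ∀ (α : Ω) (ω : Ω), IsPreprimitive (stabilizer G α) (orbit (stabilizer G α) ω))
    {α ω : Ω} (hω : ω ≠ α) : IsCoatom (stabilizer (stabilizer G α) ω) := by
  have hnt : Nontrivial (orbit (stabilizer G α) ω) := by
    by_contra hcon
    rw [not_nontrivial_iff_subsingleton] at hcon
    have hfix : stabilizer G α ≤ stabilizer G ω := by
      intro g hg
      have := hcon.elim (⟨g • ω, mem_orb.mpr ⟨g, hg, rfl⟩⟩ : orbit (stabilizer G α) ω) ⟨ω, mem_orbit_self ω⟩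
      exact congrArg Subtype.val this
    have htop := two_stab_top hprim hH hω (stabilizer G ω) hfix le_rfl
    obtain ⟨g, hg⟩ := exists_smul_eq G ω α
    have : g ∈ stabilizer G ω := by rw [htop]; trivial
    rw [mem_stabilizer_iff, hg] at this
    exact hω this.symm
  have hco := @IsPreprimitive.isCoatom_stabilizer_of_isPreprimitive (stabilizer G α) _
    (orbit (stabilizer G α) ω) _ hnt (hep α ω) ⟨ω, mem_orbit_self ω⟩
  have heq : stabilizer (stabilizer G α) (⟨ω, mem_orbit_self ω⟩ : orbit (stabilizer G α) ω) =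
      stabilizer (stabilizer G α) ω := by
    ext h
    rw [mem_stabilizer_iff, mem_stabilizer_iff]
    constructor
    · intro h1; exact congrArg Subtype.val h1
    · intro h1; exact Subtype.ext h1
  rwa [heq] at hco

theorem diag_contra [Finite G] [Finite Ω] [FaithfulSMul G Ω] (hprim : IsPreprimitive G Ω)
    (hH : ∀ α : Ω, stabilizer G α ≠ ⊥)
    (hep : ∀ (α : Ω) (ω : Ω), IsPreprimitive (stabilizer G α) (orbit (stabilizer G α) ω))
    (α : Ω) (T C : Subgroup G) (hTC : ∀ t ∈ T, ∀ c ∈ C, t * c = c * t)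
    (hT1 : ∀ t ∈ T, t • α = α → t = 1)
    (hC1 : ∀ c ∈ C, c • α = α → c = 1) (hCtr : ∀ β : Ω, ∃ c ∈ C, c • α = β)
    (hTs : ∀ L : Subgroup G, L ≤ T → (∀ t ∈ T, ∀ l ∈ L, t * l * t⁻¹ ∈ L) → L = ⊥ ∨ L = T)
    (hTnc : ¬ ∀ a ∈ T, ∀ b ∈ T, a * b = b * a)
    (hconj : ∀ g : G, g • α = α → (cj g T = T ∧ cj g C = C) ∨ (cj g T = C ∧ cj g C = T)) : False := by
  classical
  -- T ∩ C = 1
  have hTCbot : ∀ x ∈ T, x ∈ C → x = 1 := by
    have := hTs (T ⊓ C) inf_le_left (by
      rintro t ht l ⟨hl1, hl2⟩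
      rw [hTC t ht l hl2, mul_inv_cancel_right]
      exact ⟨hl1, hl2⟩)
    rcases this with h | h
    · intro x hx hx'
      have : x ∈ T ⊓ C := ⟨hx, hx'⟩
      rwa [h, Subgroup.mem_bot] at this
    · exfalso
      apply hTnc
      intro a ha b hb
      rw [← h] at hb
      exact hTC a ha b hb.2
  have hfind : ∀ t : G, ∃ c ∈ C, (t * c) • α = α := by
    intro t
    obtain ⟨c, hc, h⟩ := hCtr (t⁻¹ • α)
    exact ⟨c, hc, by rw [mul_smul, h, smul_inv_smul]⟩
  -- the group D
  let D : Subgroup (stabilizer G α) :=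
    { carrier := {d | ∃ t ∈ T, ∃ c ∈ C, (d : G) = t * c}
      mul_mem' := by
        rintro a b ⟨t, ht, c, hc, h1⟩ ⟨t', ht', c', hc', h2⟩
        refine ⟨t * t', T.mul_mem ht ht', c * c', C.mul_mem hc hc', ?_⟩
        rw [Subgroup.coe_mul, h1, h2]
        calc t * c * (t' * c') = t * (c * t') * c' := by group
          _ = t * (t' * c) * c' := by rw [← hTC t' ht' c hc]
          _ = t * t' * (c * c') := by group
      one_mem' := ⟨1, T.one_mem, 1, C.one_mem, by simp⟩
      inv_mem' := by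
        rintro a ⟨t, ht, c, hc, h1⟩
        refine ⟨t⁻¹, T.inv_mem ht, c⁻¹, C.inv_mem hc, ?_⟩
        rw [Subgroup.coe_inv, h1, ← mul_inv_rev, hTC t ht c hc] }
  have hDmem : ∀ d : stabilizer G α, d ∈ D ↔ ∃ t ∈ T, ∃ c ∈ C, (d : G) = t * c := fun d => Iff.rfl
  have hDn : D.Normal := by
    constructor
    rintro d ⟨t, ht, c, hc, h1⟩ h
    have e : (h : G) * (t * c) * (h : G)⁻¹ = ((h : G) * t * (h : G)⁻¹) * ((h : G) * c * (h : G)⁻¹) := by group
    have m1 := conj_mem_cj (g := (h : G)) ht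
    have m2 := conj_mem_cj (g := (h : G)) hc
    rcases hconj h h.2 with ⟨h2, h3⟩ | ⟨h2, h3⟩
    · rw [h2] at m1
      rw [h3] at m2
      exact ⟨_, m1, _, m2, by rw [Subgroup.coe_mul, Subgroup.coe_mul, Subgroup.coe_inv, h1, e]⟩
    · rw [h2] at m1
      rw [h3] at m2
      exact ⟨_, m2, _, m1, by rw [Subgroup.coe_mul, Subgroup.coe_mul, Subgroup.coe_inv, h1, e, hTC _ m2 _ m1]⟩
  have hDnc : ¬ ∀ a ∈ D, ∀ b ∈ D, a * b = b * a := by
    intro hab
    apply hTnc
    intro s hs t ht
    obtain ⟨b, hb, hsb⟩ := hfind s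
    obtain ⟨c, hc, htc⟩ := hfind t
    have h1 := congrArg Subtype.val (hab ⟨s * b, hsb⟩ ⟨s, hs, b, hb, rfl⟩ ⟨t * c, htc⟩ ⟨t, ht, c, hc, rfl⟩)
    have h1' : s * b * (t * c) = t * c * (s * b) := h1
    have h2 : (s * t) * (b * c) = (t * s) * (c * b) := by
      calc (s * t) * (b * c) = s * (t * b) * c := by group
        _ = s * (b * t) * c := by rw [hTC t ht b hb]
        _ = s * b * (t * c) := by group
        _ = t * c * (s * b) := h1'
        _ = t * (c * s) * b := by group
        _ = t * (s * c) * b := by rw [hTC s hs c hc]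
        _ = (t * s) * (c * b) := by group
    have h3 : (t * s)⁻¹ * (s * t) = 1 := by
      apply hTCbot
      · exact T.mul_mem (T.inv_mem (T.mul_mem ht hs)) (T.mul_mem hs ht)
      · have : (t * s)⁻¹ * (s * t) = (c * b) * (b * c)⁻¹ := by
          rw [inv_mul_eq_iff_eq_mul, ← mul_assoc, ← h2]; group
        rw [this]
        exact C.mul_mem (C.mul_mem hc hb) (C.inv_mem (C.mul_mem hb hc))
    rw [inv_mul_eq_one] at h3
    exact h3.symm
  have hDs : ∀ L : Subgroup (stabilizer G α), L ≤ D → (∀ t ∈ D, ∀ l ∈ L, t * l * t⁻¹ ∈ L) → L = ⊥ ∨ L = D := by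
    intro L hLD hLn
    let LT : Subgroup G :=
      { carrier := {t | t ∈ T ∧ ∃ c ∈ C, ∃ h ∈ L, (h : G) = t * c}
        mul_mem' := by
          rintro a b ⟨ha, c, hc, h, hh, h1⟩ ⟨hb, c', hc', h', hh', h2⟩
          refine ⟨T.mul_mem ha hb, c * c', C.mul_mem hc hc', h * h', L.mul_mem hh hh', ?_⟩
          rw [Subgroup.coe_mul, h1, h2]
          calc a * c * (b * c') = a * (c * b) * c' := by group
            _ = a * (b * c) * c' := by rw [← hTC b hb c hc]
            _ = a * b * (c * c') := by group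
        one_mem' := ⟨T.one_mem, 1, C.one_mem, 1, L.one_mem, by simp⟩
        inv_mem' := by
          rintro a ⟨ha, c, hc, h, hh, h1⟩
          refine ⟨T.inv_mem ha, c⁻¹, C.inv_mem hc, h⁻¹, L.inv_mem hh, ?_⟩
          rw [Subgroup.coe_inv, h1, ← mul_inv_rev, hTC a ha c hc] }
    have := hTs LT (fun x hx => hx.1) (by
      rintro s hs t ⟨ht, c, hc, h, hh, h1⟩
      obtain ⟨b, hb, hsb⟩ := hfind s
      have h2 := hLn ⟨s * b, hsb⟩ ⟨s, hs, b, hb, rfl⟩ h hh
      refine ⟨T.mul_mem (T.mul_mem hs ht) (T.inv_mem hs), b * c * b⁻¹,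
        C.mul_mem (C.mul_mem hb hc) (C.inv_mem hb), _, h2, ?_⟩
      rw [Subgroup.coe_mul, Subgroup.coe_mul, Subgroup.coe_inv, h1]
      show s * b * (t * c) * (s * b)⁻¹ = s * t * s⁻¹ * (b * c * b⁻¹)
      have hbi : ∀ x ∈ T, b⁻¹ * x = x * b⁻¹ := by
        intro x hx
        rw [inv_mul_eq_iff_eq_mul, ← mul_assoc, ← hTC x hx b hb, mul_inv_cancel_right]
      have hbci : (b * c * b⁻¹) * s⁻¹ = s⁻¹ * (b * c * b⁻¹) :=
        (hTC _ (T.inv_mem hs) _ (C.mul_mem (C.mul_mem hb hc) (C.inv_mem hb))).symm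
      calc s * b * (t * c) * (s * b)⁻¹ = s * (b * t) * c * b⁻¹ * s⁻¹ := by group
        _ = s * (t * b) * c * b⁻¹ * s⁻¹ := by rw [← hTC t ht b hb]
        _ = s * t * ((b * c * b⁻¹) * s⁻¹) := by group
        _ = s * t * (s⁻¹ * (b * c * b⁻¹)) := by rw [hbci]
        _ = s * t * s⁻¹ * (b * c * b⁻¹) := by group)
    rcases this with h | h
    · left
      rw [eq_bot_iff]
      intro d hd
      obtain ⟨t, ht, c, hc, h1⟩ := hLD hd
      have h2 : t ∈ LT := ⟨ht, c, hc, d, hd, h1⟩
      rw [h, Subgroup.mem_bot] at h2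
      rw [h2, one_mul] at h1
      have h3 : c • α = α := by rw [← h1]; exact d.2
      rw [Subgroup.mem_bot]
      apply Subtype.ext
      rw [h1, hC1 c hc h3]; rfl
    · right
      apply le_antisymm hLD
      rintro d ⟨t, ht, c, hc, h1⟩
      have h2 : t ∈ LT := by rw [h]; exact ht
      obtain ⟨-, c', hc', h', hh', h3⟩ := h2
      have h4 : c'⁻¹ * c = 1 := by
        apply hC1 _ (C.mul_mem (C.inv_mem hc') hc)
        have h5 : c'⁻¹ * c = (h' : G)⁻¹ * d := by rw [h1, h3]; group
        rw [h5, mul_smul, show (d : G) • α = α from d.2, inv_smul_eq_iff]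
        exact (show (h' : G) • α = α from h'.2).symm
      rw [inv_mul_eq_one] at h4
      have : d = h' := Subtype.ext (by rw [h1, h3, h4])
      rw [this]; exact hh'
  -- extended centralizers
  let M : stabilizer G α → Subgroup (stabilizer G α) := fun d =>
    { carrier := {h | h * d * h⁻¹ = d ∨ h * d * h⁻¹ = d⁻¹}
      mul_mem' := by
        intro a b ha hb
        have e : a * b * d * (a * b)⁻¹ = a * (b * d * b⁻¹) * a⁻¹ := by group
        show a * b * d * (a * b)⁻¹ = d ∨ a * b * d * (a * b)⁻¹ = d⁻¹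
        rw [e]
        have ei : a * d⁻¹ * a⁻¹ = (a * d * a⁻¹)⁻¹ := by group
        rcases hb with hb | hb
        · rw [hb]; exact ha
        · rw [hb, ei]
          rcases ha with ha | ha
          · right; rw [ha]
          · left; rw [ha, inv_inv]
      one_mem' := by left; simp
      inv_mem' := by
        intro a ha
        show a⁻¹ * d * a⁻¹⁻¹ = d ∨ a⁻¹ * d * a⁻¹⁻¹ = d⁻¹
        rcases ha with ha | ha
        · left
          conv_lhs => rw [← ha]
          group
        · right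
          have : d = (a * d * a⁻¹)⁻¹ := by rw [ha, inv_inv]
          conv_lhs => rw [this]
          group }
  have hMmem : ∀ d h, h ∈ M d ↔ (h * d * h⁻¹ = d ∨ h * d * h⁻¹ = d⁻¹) := fun d h => Iff.rfl
  -- basic computations for d = t c
  have hct : ∀ t ∈ T, ∀ c ∈ C, (t * c) • α = α → c • α = t⁻¹ • α := by
    intro t ht c hc h
    rw [mul_smul] at h
    rw [← h, inv_smul_smul]
    exact congrArg (fun z => c • z) h
  have hTeq : ∀ a ∈ T, ∀ b ∈ T, a • α = b • α → a = b := by
    intro a ha b hb h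
    have := hT1 (b⁻¹ * a) (T.mul_mem (T.inv_mem hb) ha) (by rw [mul_smul, h, inv_smul_smul])
    rw [inv_mul_eq_one] at this
    exact this.symm
  have hCeq : ∀ a ∈ C, ∀ b ∈ C, a • α = b • α → a = b := by
    intro a ha b hb h
    have := hC1 (b⁻¹ * a) (C.mul_mem (C.inv_mem hb) ha) (by rw [mul_smul, h, inv_smul_smul])
    rw [inv_mul_eq_one] at this
    exact this.symm
  have hMstab : ∀ d ∈ D, d ≠ 1 → ∃ t ∈ T, ∃ c ∈ C, (d : G) = t * c ∧ t ≠ 1 ∧ c • α = t⁻¹ • α ∧
      M d = stabilizer (stabilizer G α) (t • α) ∧ IsCoatom (M d) := by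
    rintro d ⟨t, ht, c, hc, h1⟩ hd1
    have hdα : (t * c) • α = α := by rw [← h1]; exact d.2
    have hcα := hct t ht c hc hdα
    have ht1 : t ≠ 1 := by
      rintro rfl
      apply hd1
      apply Subtype.ext
      rw [h1, one_mul]
      apply hC1 c hc
      rw [hcα]; simp
    have htα : t • α ≠ α := fun h => ht1 (hT1 t ht h)
    have hco := stab2_coatom hprim hH hep htα
    have hle : stabilizer (stabilizer G α) (t • α) ≤ M d := by
      rintro ⟨h, hh⟩ hx
      have hx' : h • t • α = t • α := hx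
      have hh' : h • α = α := hh
      have hhi : h⁻¹ • α = α := by rw [inv_smul_eq_iff, hh']
      have e1 : (h * t * h⁻¹) • α = t • α := by rw [mul_smul, mul_smul, hhi, hx']
      have e2 : (h * c * h⁻¹) • α = (h * t * h⁻¹)⁻¹ • α := by
        rw [mul_smul, mul_smul, hhi, hcα]
        have : (h * t * h⁻¹)⁻¹ = h * t⁻¹ * h⁻¹ := by group
        rw [this, mul_smul, mul_smul, hhi]
      have hti : t • α = c⁻¹ • α := by
        have h5 : (t * c) • α = α := hdα
        rw [hTC t ht c hc, mul_smul] at h5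
        rw [eq_inv_smul_iff, h5]
      have m1 := conj_mem_cj (g := h) ht
      have m2 := conj_mem_cj (g := h) hc
      have e3 : h * (t * c) * h⁻¹ = (h * t * h⁻¹) * (h * c * h⁻¹) := by group
      rw [hMmem]
      rcases hconj h hh' with ⟨h2, h3⟩ | ⟨h2, h3⟩
      · left
        rw [h2] at m1
        rw [h3] at m2
        apply Subtype.ext
        rw [Subgroup.coe_mul, Subgroup.coe_mul, Subgroup.coe_inv, h1]
        show h * (t * c) * h⁻¹ = t * c
        have f1 := hTeq _ m1 _ ht e1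
        rw [f1] at e2
        have f2 := hCeq _ m2 _ hc (by rw [e2, hcα])
        rw [e3, f1, f2]
      · right
        rw [h2] at m1
        rw [h3] at m2
        apply Subtype.ext
        rw [Subgroup.coe_mul, Subgroup.coe_mul, Subgroup.coe_inv, Subgroup.coe_inv, h1]
        show h * (t * c) * h⁻¹ = (t * c)⁻¹
        have f1 := hCeq _ m1 _ (C.inv_mem hc) (by rw [e1, hti])
        rw [f1, inv_inv, hcα] at e2
        have f2 := hTeq _ m2 _ (T.inv_mem ht) e2
        rw [e3, f1, f2, mul_inv_rev]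
    have hMtop : M d ≠ ⊤ := by
      intro htop
      have h6 := hDs (Subgroup.zpowers d) (by
        rw [Subgroup.zpowers_le]; exact ⟨t, ht, c, hc, h1⟩) (by
        intro h _ l hl
        obtain ⟨k, rfl⟩ := Subgroup.mem_zpowers_iff.mp hl
        have : h ∈ M d := by rw [htop]; trivial
        rw [← conj_zpow]
        rcases this with h7 | h7
        · rw [h7]; exact Subgroup.zpow_mem_zpowers d k
        · rw [h7]; exact Subgroup.zpow_mem _ (Subgroup.inv_mem _ (Subgroup.mem_zpowers d)) k)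
      rcases h6 with h6 | h6
      · rw [Subgroup.zpowers_eq_bot] at h6
        exact hd1 h6
      · apply hDnc
        intro a ha b hb
        rw [← h6] at ha hb
        obtain ⟨k, rfl⟩ := Subgroup.mem_zpowers_iff.mp ha
        obtain ⟨l, rfl⟩ := Subgroup.mem_zpowers_iff.mp hb
        rw [← zpow_add, ← zpow_add, add_comm]
    have hMeq : M d = stabilizer (stabilizer G α) (t • α) := by
      rcases hco.le_iff.mp hle with h | h
      · exact absurd h hMtop
      · exact h
    exact ⟨t, ht, c, hc, h1, ht1, hcα, hMeq, by rw [hMeq]; exact hco⟩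
  apply lemmaX D hDn hDnc hDs M
  · intro d hd hd1
    obtain ⟨t, ht, c, hc, h1, ht1, hcα, hMeq, hco⟩ := hMstab d hd hd1
    exact hco
  · intro d _ k _ h hh
    rw [hMmem] at hh ⊢
    rw [← conj_pow]
    rcases hh with h1 | h1
    · left; rw [h1]
    · right; rw [h1, inv_pow]
  · intro d hd hd1 x hx
    obtain ⟨t, ht, c, hc, h1, ht1, hcα, hMeq, hco⟩ := hMstab d hd hd1
    constructor
    · intro hxM
      rw [hMeq] at hxM
      obtain ⟨s, hs, b, hb, h2⟩ := hx
      have hxt : (x : G) • t • α = t • α := hxM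
      have hsb : (s * b) • α = α := by rw [← h2]; exact x.2
      have hbα := hct s hs b hb hsb
      have e1 : (s * t * s⁻¹) • α = t • α := by
        rw [mul_smul, mul_smul, ← hbα, ← mul_smul t, hTC t ht b hb, mul_smul, ← mul_smul s, ← h2, hxt]
      have f1 := hTeq _ (T.mul_mem (T.mul_mem hs ht) (T.inv_mem hs)) _ ht e1
      have e4 : s * b * (t * c) * (s * b)⁻¹ = (s * t * s⁻¹) * (b * c * b⁻¹) := by
        have hbci : (b * c * b⁻¹) * s⁻¹ = s⁻¹ * (b * c * b⁻¹) :=
          (hTC _ (T.inv_mem hs) _ (C.mul_mem (C.mul_mem hb hc) (C.inv_mem hb))).symm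
        calc s * b * (t * c) * (s * b)⁻¹ = s * (b * t) * c * b⁻¹ * s⁻¹ := by group
          _ = s * (t * b) * c * b⁻¹ * s⁻¹ := by rw [← hTC t ht b hb]
          _ = s * t * ((b * c * b⁻¹) * s⁻¹) := by group
          _ = s * t * (s⁻¹ * (b * c * b⁻¹)) := by rw [hbci]
          _ = s * t * s⁻¹ * (b * c * b⁻¹) := by group
      have e5 : (s * b * (t * c) * (s * b)⁻¹) • α = α := by
        rw [← h1, ← h2]
        exact (stabilizer G α).mul_mem ((stabilizer G α).mul_mem x.2 d.2) ((stabilizer G α).inv_mem x.2)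
      rw [e4, f1, mul_smul] at e5
      have e6 : (b * c * b⁻¹) • α = c • α := by
        rw [hcα]
        conv_rhs => rw [← e5]
        rw [inv_smul_smul]
      have f2 := hCeq _ (C.mul_mem (C.mul_mem hb hc) (C.inv_mem hb)) _ hc e6
      rw [f1, f2] at e4
      apply Subtype.ext
      rw [Subgroup.coe_mul, Subgroup.coe_mul, h1, h2]
      rw [mul_inv_eq_iff_eq_mul] at e4
      exact e4
    · intro h
      rw [hMmem]
      left
      rw [h, mul_inv_cancel_right]

end Cfsg.Agent.Lib.ExtPrim
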