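import Mathlib
import Cfsg.Prelude.Def_Transfer
import Cfsg.Agent.Lib.ElabRep

/-!
S2912: the order of an elementary abelian `r`-group with a faithful action of an extraspecial `p`-group.
-/

set_option autoImplicit false

namespace Cfsg.Agent.Lib.ExtraBound

/-- operators which are simultaneous eigenvectors with distinct characters are linearly independent -/
theorem indep {k : Type*} [Field k] {W : Type*} [AddCommGroup W] [Module k W] [Nontrivial W]
    {E : Type*} [Group E] (ρ : E →* Module.End k W) {ι : Type*} (t : ι → E) (χ : E → ι → k)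
    (hχ : ∀ g i, ρ g * ρ (t i) * ρ g⁻¹ = χ g i • ρ (t i))
    (hdist : ∀ i j, i ≠ j → ∃ g, χ g i ≠ χ g j) : LinearIndependent k (fun i => ρ (t i)) := by
  classical
  rw [linearIndependent_iff']
  intro s
  induction s using Finset.induction_on with
  | empty => intro c _ i hi; exact absurd hi (Finset.notMem_empty i)
  | insert j s hj ih =>
    intro c hc
    have hconj : ∀ g, ∑ i ∈ insert j s, (c i * χ g i) • ρ (t i) = 0 := by
      intro g
      have h1 : ρ g * (∑ i ∈ insert j s, c i • ρ (t i)) * ρ g⁻¹ = 0 := by rw [hc, mul_zero, zero_mul]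
      rw [Finset.mul_sum, Finset.sum_mul] at h1
      rw [← h1]
      apply Finset.sum_congr rfl
      intro i _
      rw [mul_smul_comm, smul_mul_assoc, hχ, smul_smul]
    have hs : ∀ i ∈ s, c i = 0 := by
      intro i hi
      have hij : i ≠ j := by rintro rfl; exact hj hi
      obtain ⟨g, hg⟩ := hdist i j hij
      have h1 := hconj g
      have h2 : ∑ i ∈ insert j s, (c i * (χ g i - χ g j)) • ρ (t i) = 0 := by
        have h3 : ∑ i ∈ insert j s, (c i * (χ g i - χ g j)) • ρ (t i) =
            ∑ i ∈ insert j s, (c i * χ g i) • ρ (t i) - χ g j • ∑ i ∈ insert j s, c i • ρ (t i) := by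
          rw [Finset.smul_sum, ← Finset.sum_sub_distrib]
          apply Finset.sum_congr rfl
          intro i _
          rw [smul_smul, ← sub_smul]
          congr 1
          ring
        rw [h3, h1, hc, smul_zero, sub_zero]
      rw [Finset.sum_insert hj, sub_self, mul_zero, zero_smul, zero_add] at h2
      have h4 := ih (fun i => c i * (χ g i - χ g j)) h2 i hi
      rcases mul_eq_zero.mp h4 with h5 | h5
      · exact h5
      · exact absurd (sub_eq_zero.mp h5) hg
    intro i hi
    rw [Finset.mem_insert] at hi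
    rcases hi with rfl | hi
    · rw [Finset.sum_insert hj, Finset.sum_eq_zero (fun i hi => by rw [hs i hi, zero_smul]), add_zero] at hc
      rcases smul_eq_zero.mp hc with h1 | h1
      · exact h1
      · exfalso
        obtain ⟨w, hw⟩ := exists_ne (0 : W)
        apply hw
        have h2 : ρ (t i)⁻¹ (ρ (t i) w) = w := by
          rw [← Module.End.mul_apply, ← map_mul, inv_mul_cancel, map_one, Module.End.one_apply]
        rw [← h2, h1, LinearMap.zero_apply, map_zero]
    · exact hs i hi

theorem le_of_sq_le_sq' {a b : ℕ} (h : a ^ 2 ≤ b ^ 2) : a ≤ b := by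
  by_contra hcon
  push Not at hcon
  have := Nat.pow_lt_pow_left hcon (n := 2) (by norm_num)
  omega

/-- the dimension bound -/
theorem sq_le {k : Type*} [Field k] {W : Type*} [AddCommGroup W] [Module k W] [Nontrivial W] [Module.Finite k W]
    {E : Type*} [Group E] [Finite E] (ρ : E →* Module.End k W)
    (hcomm : commutator E ≤ Subgroup.center E)
    (hat : E → k) (hhat : ∀ z ∈ Subgroup.center E, ∀ w, ρ z w = hat z • w)
    (hfaith : ∀ z ∈ Subgroup.center E, hat z = 1 → z = 1) :
    (Subgroup.center E).index ≤ Module.finrank k W ^ 2 := by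
  classical
  have hmem : ∀ g x : E, g * x * g⁻¹ * x⁻¹ ∈ Subgroup.center E := fun g x =>
    hcomm (Subgroup.commutator_mem_commutator (Subgroup.mem_top g) (Subgroup.mem_top x))
  have hmul : ∀ z ∈ Subgroup.center E, ∀ z' ∈ Subgroup.center E, hat (z * z') = hat z * hat z' := by
    intro z hz z' hz'
    obtain ⟨w, hw⟩ := exists_ne (0 : W)
    have h1 := hhat _ (mul_mem hz hz') w
    rw [map_mul, Module.End.mul_apply, hhat z' hz', map_smul, hhat z hz, smul_smul, ← sub_eq_zero, ← sub_smul] at h1
    rcases smul_eq_zero.mp h1 with h2 | h2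
    · rw [← sub_eq_zero.mp h2, mul_comm]
    · exact absurd h2 hw
  have hone : hat 1 = 1 := by
    obtain ⟨w, hw⟩ := exists_ne (0 : W)
    have h1 := hhat 1 (one_mem _) w
    rw [map_one, Module.End.one_apply] at h1
    have h2 : (hat 1 - 1) • w = 0 := by rw [sub_smul, one_smul, ← h1, sub_self]
    rcases smul_eq_zero.mp h2 with h3 | h3
    · exact sub_eq_zero.mp h3
    · exact absurd h3 hw
  have hinj : ∀ z ∈ Subgroup.center E, ∀ z' ∈ Subgroup.center E, hat z = hat z' → z = z' := by
    intro z hz z' hz' h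
    have h1 : hat (z * z'⁻¹) = 1 := by
      rw [hmul z hz _ (inv_mem hz'), h, ← hmul z' hz' _ (inv_mem hz'), mul_inv_cancel, hone]
    exact mul_inv_eq_one.mp (hfaith _ (mul_mem hz (inv_mem hz')) h1)
  let t : (E ⧸ Subgroup.center E) → E := Quotient.out
  have ht : ∀ q, ((t q : E) : E ⧸ Subgroup.center E) = q := fun q => Quotient.out_eq q
  have hli := indep ρ t (fun g q => hat (g * t q * g⁻¹ * (t q)⁻¹))
    (by
      intro g q
      apply LinearMap.ext
      intro w
      have h1 : g * t q * g⁻¹ = (g * t q * g⁻¹ * (t q)⁻¹) * t q := by group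
      rw [← map_mul, ← map_mul]
      conv_lhs => rw [h1, map_mul, Module.End.mul_apply, hhat _ (hmem g (t q))]
      rfl)
    (by
      intro q q' hqq
      by_contra hcon
      push Not at hcon
      apply hqq
      rw [← ht q, ← ht q']
      rw [QuotientGroup.eq, Subgroup.mem_center_iff]
      intro g
      have h1 := hinj _ (hmem g (t q)) _ (hmem g (t q')) (hcon g)
      have h2 : (t q)⁻¹ * (g * t q * g⁻¹ * (t q)⁻¹)⁻¹ * (g * t q' * g⁻¹ * (t q')⁻¹) * t q' =
        (t q)⁻¹ * t q' := by rw [h1]; group
      have h3 := Subgroup.mem_center_iff.mp (hmem g (t q)) 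
      have h4 : g * ((t q)⁻¹ * t q') = (g * (t q)⁻¹ * g⁻¹) * (g * t q' * g⁻¹) * g := by group
      have h5 : g * (t q)⁻¹ * g⁻¹ = (t q)⁻¹ * (g * t q * g⁻¹ * (t q)⁻¹)⁻¹ := by group
      have h6 : g * t q' * g⁻¹ = (g * t q' * g⁻¹ * (t q')⁻¹) * t q' := by group
      rw [h4, h5, h6, ← mul_assoc, h2])
  have : Fintype (E ⧸ Subgroup.center E) := Fintype.ofFinite _
  have h1 := hli.fintype_card_le_finrank
  rw [Module.finrank_linearMap, ← pow_two, ← Nat.card_eq_fintype_card] at h1
  exact h1

section simple

variable {r : ℕ} [hr : Fact r.Prime] {E : Type*} [Group E] [Finite E]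
  {W : Type*} [AddCommGroup W] [Module (MonoidAlgebra (ZMod r) E) W]
  [hW : IsSimpleModule (MonoidAlgebra (ZMod r) E) W] [Finite W]

theorem bound_simple {p : ℕ} [hp : Fact p.Prime] (hcomm : commutator E ≤ Subgroup.center E)
    (hZ : Nat.card (Subgroup.center E) = p) {w : ℕ} (hE : Nat.card E = p ^ (2 * w + 1)) {n : ℕ}
    (hmin : ∀ k : ℕ, 1 ≤ k → p ∣ r ^ k - 1 → n ≤ k)
    (hz : ∃ z ∈ Subgroup.center E, ∃ v : W, MonoidAlgebra.of (ZMod r) E z • v ≠ v) :
    r ^ (n * p ^ w) ≤ Nat.card W := by
  classical
  have hnt : Nontrivial W := IsSimpleModule.nontrivial (MonoidAlgebra (ZMod r) E) W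
  have hfin : Finite (Module.End (MonoidAlgebra (ZMod r) E) W) :=
    Finite.of_injective (fun f => (f : W → W)) DFunLike.coe_injective
  let _ : Field (Module.End (MonoidAlgebra (ZMod r) E) W) := littleWedderburn _
  have hmodfin : Module.Finite (Module.End (MonoidAlgebra (ZMod r) E) W) W := Module.Finite.of_finite
  let ρ : E →* Module.End (Module.End (MonoidAlgebra (ZMod r) E) W) W :=
    { toFun := fun e =>
        { toFun := fun v => MonoidAlgebra.of (ZMod r) E e • v
          map_add' := fun a b => smul_add _ _ _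
          map_smul' := fun φ v => (φ.map_smul _ v).symm }
      map_one' := by
        apply LinearMap.ext
        intro v
        change MonoidAlgebra.of (ZMod r) E 1 • v = v
        rw [map_one, one_smul]
      map_mul' := fun a b => by
        apply LinearMap.ext
        intro v
        change MonoidAlgebra.of (ZMod r) E (a * b) • v = MonoidAlgebra.of (ZMod r) E a • (MonoidAlgebra.of (ZMod r) E b • v)
        rw [map_mul, mul_smul] }
  have hρ : ∀ e v, ρ e v = MonoidAlgebra.of (ZMod r) E e • v := fun _ _ => rfl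
  have hcen : ∀ z ∈ Subgroup.center E, ∀ a : MonoidAlgebra (ZMod r) E,
      MonoidAlgebra.of (ZMod r) E z * a = a * MonoidAlgebra.of (ZMod r) E z := by
    intro z hz a
    exact MonoidAlgebra.single_commute (fun g => (Subgroup.mem_center_iff.mp hz g).symm) (fun _ => Commute.all _ _) a
  let hat : E → Module.End (MonoidAlgebra (ZMod r) E) W := fun z =>
    if hz : z ∈ Subgroup.center E then
      { toFun := fun v => MonoidAlgebra.of (ZMod r) E z • v
        map_add' := fun a b => smul_add _ _ _
        map_smul' := fun a v => by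
          change MonoidAlgebra.of (ZMod r) E z • (a • v) = a • (MonoidAlgebra.of (ZMod r) E z • v)
          rw [← mul_smul, hcen z hz a, mul_smul] }
    else 1
  have hhat : ∀ z ∈ Subgroup.center E, ∀ v, ρ z v = hat z • v := by
    intro z hz v
    have : hat z = { toFun := fun v => MonoidAlgebra.of (ZMod r) E z • v
                     map_add' := fun a b => smul_add _ _ _
                     map_smul' := fun a v => by
                      change MonoidAlgebra.of (ZMod r) E z • (a • v) = a • (MonoidAlgebra.of (ZMod r) E z • v)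
                      rw [← mul_smul, hcen z hz a, mul_smul] } := dif_pos hz
    rw [this]
    rfl
  obtain ⟨z0, hz0, v0, hv0⟩ := hz
  have hz01 : z0 ≠ 1 := by
    rintro rfl
    apply hv0
    rw [map_one, one_smul]
  -- the centre acts faithfully
  have hpow : ∀ (c : E) (m : ℕ), (∀ v : W, MonoidAlgebra.of (ZMod r) E c • v = v) →
      ∀ v : W, MonoidAlgebra.of (ZMod r) E (c ^ m) • v = v := by
    intro c m hc
    induction m with
    | zero => intro v; rw [pow_zero, map_one, one_smul]
    | succ m ih => intro v; rw [pow_succ, map_mul, mul_smul, hc, ih]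
  have hfaith : ∀ z ∈ Subgroup.center E, hat z = 1 → z = 1 := by
    intro z hz h1
    by_contra hz1
    apply hv0
    have h2 : ∀ v : W, MonoidAlgebra.of (ZMod r) E z • v = v := by
      intro v
      have h3 := hhat z hz v
      rw [h1, one_smul] at h3
      exact h3
    have h3 : z0 ∈ Subgroup.zpowers z := by
      have h4 : Subgroup.zpowers z = Subgroup.center E := by
        apply Subgroup.eq_of_le_of_card_ge
        · rw [Subgroup.zpowers_le]; exact hz
        · have h5 : orderOf z ∣ p := by
            rw [← hZ]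
            have := orderOf_dvd_natCard (⟨z, hz⟩ : Subgroup.center E)
            rwa [Subgroup.orderOf_mk] at this
          rcases (Nat.dvd_prime hp.out).mp h5 with h6 | h6
          · exact absurd (orderOf_eq_one_iff.mp h6) hz1
          · rw [Nat.card_zpowers, h6, hZ]
      rw [h4]; exact hz0
    rw [← mem_powers_iff_mem_zpowers] at h3
    obtain ⟨m, hm⟩ := h3
    simp only at hm
    rw [← hm]
    exact hpow z m h2 v0
  have hsq := sq_le ρ hcomm hat hhat hfaith
  have hidx : (Subgroup.center E).index = p ^ (2 * w) := by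
    have h1 := Subgroup.card_mul_index (Subgroup.center E)
    rw [hZ, hE, pow_succ, mul_comm] at h1
    exact Nat.eq_of_mul_eq_mul_right hp.out.pos h1
  rw [hidx, mul_comm 2 w, pow_mul] at hsq
  have hd : p ^ w ≤ Module.finrank (Module.End (MonoidAlgebra (ZMod r) E) W) W :=
    le_of_sq_le_sq' hsq
  -- the order of the field
  have hr0 : ((r : ℕ) : Module.End (MonoidAlgebra (ZMod r) E) W) = 0 := by
    apply LinearMap.ext
    intro v
    have h1 : ((r : ℕ) : Module.End (MonoidAlgebra (ZMod r) E) W) v = r • v := by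
      rw [← nsmul_one]
      rfl
    rw [h1, ← Nat.cast_smul_eq_nsmul (MonoidAlgebra (ZMod r) E) r v,
      ← map_natCast (algebraMap (ZMod r) (MonoidAlgebra (ZMod r) E)), ZMod.natCast_self, map_zero, zero_smul]
    rfl
  have hchar : CharP (Module.End (MonoidAlgebra (ZMod r) E) W) r := (CharP.charP_iff_prime_eq_zero hr.out).mpr hr0
  let _ : Fintype (Module.End (MonoidAlgebra (ZMod r) E) W) := Fintype.ofFinite _
  obtain ⟨m, -, hm⟩ := FiniteField.card (Module.End (MonoidAlgebra (ZMod r) E) W) r
  have hc1 : hat z0 ≠ 1 := fun h => hz01 (hfaith z0 hz0 h)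
  have hcp : hat z0 ^ p = 1 := by
    apply LinearMap.ext
    intro v
    have h1 : ∀ (j : ℕ) (v : W), (hat z0 ^ j) v = MonoidAlgebra.of (ZMod r) E (z0 ^ j) • v := by
      intro j
      induction j with
      | zero => intro v; rw [pow_zero, pow_zero, map_one, one_smul]; rfl
      | succ j ih =>
        intro v
        rw [pow_succ, pow_succ, map_mul, mul_smul]
        change (hat z0 ^ j) (hat z0 v) = _
        rw [ih]
        congr 1
        exact (hhat z0 hz0 v).symm
    rw [h1]
    have h2 : z0 ^ p = 1 := by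
      have h3 : (⟨z0, hz0⟩ : Subgroup.center E) ^ p = 1 := by rw [← hZ]; exact pow_card_eq_one'
      exact congrArg Subtype.val h3
    rw [h2, map_one, one_smul]
    rfl
  have hc0 : hat z0 ≠ 0 := by
    intro h0
    rw [h0, zero_pow hp.out.ne_zero] at hcp
    exact zero_ne_one hcp
  have hord : orderOf (hat z0) = p := orderOf_eq_prime hcp hc1
  have hdvd : p ∣ r ^ (m : ℕ) - 1 := by
    rw [← hm, ← hord]
    exact orderOf_dvd_of_pow_eq_one (FiniteField.pow_card_sub_one_eq_one _ hc0)
  have hnm : n ≤ m := hmin m m.2 hdvd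
  have hcardW := Module.natCard_eq_pow_finrank (K := Module.End (MonoidAlgebra (ZMod r) E) W) (V := W)
  rw [hcardW, Nat.card_eq_fintype_card, hm, ← pow_mul]
  exact Nat.pow_le_pow_right hr.out.pos (Nat.mul_le_mul hnm hd)

end simple

theorem bound {r : ℕ} [hr : Fact r.Prime] {V : Type*} [AddCommGroup V] {E : Type*} [Group E] [Finite E]
    [Module (MonoidAlgebra (ZMod r) E) V] [Finite V]
    {p : ℕ} [hp : Fact p.Prime] (hpr : p ≠ r)
    (hcomm : commutator E ≤ Subgroup.center E)
    (hZ : Nat.card (Subgroup.center E) = p) {w : ℕ} (hE : Nat.card E = p ^ (2 * w + 1)) {n : ℕ}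
    (hmin : ∀ k : ℕ, 1 ≤ k → p ∣ r ^ k - 1 → n ≤ k)
    (hz : ∃ z ∈ Subgroup.center E, ∃ v : V, MonoidAlgebra.of (ZMod r) E z • v ≠ v) :
    r ^ (n * p ^ w) ≤ Nat.card V := by
  classical
  have hne : NeZero (Nat.card E : ZMod r) := by
    constructor
    rw [hE]
    intro h
    rw [ZMod.natCast_eq_zero_iff] at h
    exact hpr ((Nat.prime_dvd_prime_iff_eq hr.out hp.out).mp (hr.out.dvd_of_dvd_pow h)).symm
  obtain ⟨z, hz, v, hv⟩ := hz
  by_contra hcon
  refine hv ?_
  clear hv
  have hv' : v ∈ sSup {m : Submodule (MonoidAlgebra (ZMod r) E) V | IsSimpleModule (MonoidAlgebra (ZMod r) E) m} := by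
    rw [IsSemisimpleModule.sSup_simples_eq_top]
    trivial
  rw [sSup_eq_iSup'] at hv'
  induction hv' using Submodule.iSup_induction' with
  | mem W v hvW =>
    by_contra hne'
    apply hcon
    have hs : IsSimpleModule (MonoidAlgebra (ZMod r) E) (W : Submodule (MonoidAlgebra (ZMod r) E) V) := W.2
    have h1 := bound_simple (W := (W : Submodule (MonoidAlgebra (ZMod r) E) V)) hcomm hZ hE hmin
      ⟨z, hz, ⟨v, hvW⟩, fun h => hne' (congrArg Subtype.val h)⟩
    exact h1.trans (Nat.card_le_card_of_injective _ Subtype.val_injective)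
  | zero => rw [smul_zero]
  | add x y _ _ hx hy => rw [smul_add, hx, hy]

theorem bound_group {G : Type*} [Group G] [Finite G] {p r : ℕ} [hp : Fact p.Prime] [hr : Fact r.Prime]
    (hpr : p ≠ r) (E A : Subgroup G) (w : ℕ) (hE : Cfsg.IsExtraspecial p ↥E)
    (hEcard : Nat.card ↥E = p ^ (2 * w + 1)) (hA : Cfsg.IsElementaryAbelian r A)
    (hnorm : E ≤ Subgroup.normalizer (A : Set G)) (hfaith : E ⊓ Subgroup.centralizer (A : Set G) = ⊥) (n : ℕ)
    (hmin : ∀ k : ℕ, 1 ≤ k → p ∣ r ^ k - 1 → n ≤ k) : r ^ (n * p ^ w) ≤ Nat.card ↥A := by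
  obtain ⟨hAc, hAr⟩ := hA
  let _ : CommGroup A := { (inferInstance : Group A) with
    mul_comm := fun a b => hAc.is_comm.comm a b }
  have hEl : ∀ x : A, x ^ r = 1 := fun x => Subtype.ext (hAr x x.2)
  let _ := Lib.ElabRep.elabModule A r hEl
  let ρ := Lib.ElabRep.elabRep r hEl (Lib.ElabRep.conjHom E A hnorm)
  have hfin : Finite ρ.asModule := inferInstanceAs (Finite A)
  have hcomm : commutator E ≤ Subgroup.center E := hE.1.2.2.le
  have hz : ∃ z ∈ Subgroup.center E, ∃ v : ρ.asModule, MonoidAlgebra.of (ZMod r) E z • v ≠ v := by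
    by_contra hcon
    push Not at hcon
    have h1 : Subgroup.center E = ⊥ := by
      rw [eq_bot_iff]
      intro z hz
      have h2 : Lib.ElabRep.conjHom E A hnorm z = 1 := by
        rw [← Lib.ElabRep.elabRep_eq_one_iff r hEl]
        apply LinearMap.ext
        intro v
        have h3 := hcon z hz (ρ.asModuleEquiv.symm v)
        rw [MonoidAlgebra.of_apply, Representation.single_smul, one_smul] at h3
        simp only [LinearEquiv.apply_symm_apply] at h3
        exact h3
      rw [Lib.ElabRep.conjHom_eq_one_iff] at h2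
      have h3 : (z : G) ∈ E ⊓ Subgroup.centralizer (A : Set G) := ⟨z.2, h2⟩
      rw [hfaith, Subgroup.mem_bot] at h3
      exact Subgroup.mem_bot.mpr (Subtype.ext h3)
    have h2 := hE.2
    rw [h1, Subgroup.card_bot] at h2
    exact hp.out.one_lt.ne h2
  exact bound (V := ρ.asModule) hpr hcomm hE.2 hEcard hmin hz

end Cfsg.Agent.Lib.ExtraBound
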