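import Mathlib
import Cfsg.Prelude.Def_Transfer
import Cfsg.Agent.Lib.H70Frattini
import Cfsg.Agent.Lib.NormalRankTwo

set_option autoImplicit false

/-! Extraspecial groups of odd prime exponent-type, order `p ^ 3` (helper51). -/

namespace Cfsg.Agent.Lib.ExtraP3

open Subgroup
open scoped commutatorElement

section Basic

variable {P : Type*} [Group P]

theorem commutator_mem {p : ℕ} (hE : Cfsg.IsExtraspecial p P) (x y : P) : ⁅x, y⁆ ∈ center P := by
  have h := hE.1.2.2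
  rw [← h]
  exact commutator_mem_commutator (mem_top _) (mem_top _)

theorem pow_mem_center [Finite P] {p : ℕ} [Fact p.Prime] (hE : Cfsg.IsExtraspecial p P) (x : P) :
    x ^ p ∈ center P := by
  rw [← hE.1.2.1]
  exact H70Frattini.pow_mem_frattini hE.1.1 x

theorem center_pow [Finite P] {p : ℕ} (hE : Cfsg.IsExtraspecial p P) {z : P} (hz : z ∈ center P) : z ^ p = 1 := by
  have h := hE.2
  have h1 : (⟨z, hz⟩ : center P) ^ Nat.card (center P) = 1 := pow_card_eq_one'
  rw [h] at h1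
  exact congrArg Subtype.val h1

theorem mul_pow_p [Finite P] {p : ℕ} [hp : Fact p.Prime] (hp2 : p ≠ 2) (hE : Cfsg.IsExtraspecial p P) (x y : P) :
    (x * y) ^ p = x ^ p * y ^ p := by
  have hc := commutator_mem hE y⁻¹ x⁻¹
  refine NormalRankTwo.mul_pow_prime hp.out hp2 (c := ⁅y⁻¹, x⁻¹⁆) ?_ (center_pow hE hc) ?_
  · intro g; exact (mem_center_iff.mp hc g).symm
  · simp [commutatorElement_def]; group

theorem mem_zpowers_center [Finite P] {p : ℕ} [hp : Fact p.Prime] (hE : Cfsg.IsExtraspecial p P) {z w : P} (hz : z ∈ center P)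
    (hz1 : z ≠ 1) (hw : w ∈ center P) : w ∈ zpowers z := by
  have h := hE.2
  have h1 : zpowers z ≤ center P := by rwa [zpowers_le]
  have h2 : Nat.card (zpowers z) = p := by
    rw [Nat.card_zpowers]
    have h3 : orderOf z ∣ p := orderOf_dvd_of_pow_eq_one (center_pow hE hz)
    rcases (Nat.dvd_prime hp.out).mp h3 with h4 | h4
    · exfalso; exact hz1 (orderOf_eq_one_iff.mp h4)
    · exact h4
  have h3 : zpowers z = center P := Subgroup.eq_of_le_of_card_ge h1 (by rw [h, h2])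
  rw [h3]; exact hw

theorem exists_center_ne_one [Finite P] {p : ℕ} [hp : Fact p.Prime] (hE : Cfsg.IsExtraspecial p P) :
    ∃ z ∈ center P, z ≠ 1 := by
  have h : center P ≠ ⊥ := by
    rw [← Subgroup.one_lt_card_iff_ne_bot, hE.2]
    exact hp.out.one_lt
  obtain ⟨a, ha⟩ := (Subgroup.ne_bot_iff_exists_ne_one).mp h
  exact ⟨a.1, a.2, fun h => ha (Subtype.ext h)⟩

end Basic

/-- matrix computation with two transvections -/
theorem invert_of_transvections {G : Type*} [Group G] {z y x x' : G} (hzy : z * y = y * z)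
    (h1 : x * z * x⁻¹ = z) (h2 : x * y * x⁻¹ = y * z) (h3 : x' * y * x'⁻¹ = y) (h4 : x' * z * x'⁻¹ = z * y⁻¹) :
    ((x * x' * x) * (x * x' * x)) * z * ((x * x' * x) * (x * x' * x))⁻¹ = z⁻¹ ∧
    ((x * x' * x) * (x * x' * x)) * y * ((x * x' * x) * (x * x' * x))⁻¹ = y⁻¹ := by
  have e1 : (x * x' * x) * z * (x * x' * x)⁻¹ = y⁻¹ := by
    calc (x * x' * x) * z * (x * x' * x)⁻¹ = x * (x' * (x * z * x⁻¹) * x'⁻¹) * x⁻¹ := by group
      _ = x * (z * y⁻¹) * x⁻¹ := by rw [h1, h4]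
      _ = (x * z * x⁻¹) * (x * y * x⁻¹)⁻¹ := by group
      _ = y⁻¹ := by rw [h1, h2]; group
  have e2 : (x * x' * x) * y * (x * x' * x)⁻¹ = z := by
    calc (x * x' * x) * y * (x * x' * x)⁻¹ = x * (x' * (x * y * x⁻¹) * x'⁻¹) * x⁻¹ := by group
      _ = x * ((x' * y * x'⁻¹) * (x' * z * x'⁻¹)) * x⁻¹ := by rw [h2]; group
      _ = x * (y * (z * y⁻¹)) * x⁻¹ := by rw [h3, h4]
      _ = x * z * x⁻¹ := by rw [← mul_assoc y, ← hzy]; group
      _ = z := h1
  constructor
  · calc _ = (x * x' * x) * ((x * x' * x) * z * (x * x' * x)⁻¹) * (x * x' * x)⁻¹ := by group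
      _ = ((x * x' * x) * y * (x * x' * x)⁻¹)⁻¹ := by rw [e1]; group
      _ = z⁻¹ := by rw [e2]
  · calc _ = (x * x' * x) * ((x * x' * x) * y * (x * x' * x)⁻¹) * (x * x' * x)⁻¹ := by group
      _ = y⁻¹ := by rw [e2, e1]

end Cfsg.Agent.Lib.ExtraP3
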