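import Mathlib
import Cfsg.Agent.Lib.MobDickson
import Cfsg.Agent.Lib.FrobAction3

/-!
Points of the projective line fixed by elements of large order of a `p'`-subgroup of `PGL(2,p)` (helper17).
-/

set_option autoImplicit false

namespace Cfsg.Agent.Lib.ExtraTri

open MulAction Matrix Cfsg.Agent.Lib.MobCount Cfsg.Agent.Lib.ClProjLine
open scoped LinearAlgebra.Projectivization MatrixGroups

section

variable {F : Type*} [Field F] [Fintype F] (p : ℕ) [Fact p.Prime] [CharP F p]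
variable {H : Type*} [Group H] [Finite H] (f : H →* PGL(Fin 2, F)) (hf : Function.Injective f)

include hf in
theorem dickson' (hpH : ¬ p ∣ Nat.card H) :
    IsCyclic H ∨
    (∃ C : Subgroup H, IsCyclic C ∧ (∀ t : H, t ∉ C → t * t = 1)) ∨
    Nonempty (H ≃* alternatingGroup (Fin 4)) ∨
    Nonempty (H ≃* Equiv.Perm (Fin 4)) ∨
    Nonempty (H ≃* alternatingGroup (Fin 5)) := by
  let _ := extAct f
  have := charP_ac (F := F) p
  have hm := mobLike_ext p f hf
  have hUU : ∀ x, UU hm x = ⊥ := by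
    intro x
    by_contra hx
    obtain ⟨u, hu, hu1⟩ := (UU hm x).bot_or_exists_ne_one.resolve_left hx
    apply hpH
    rw [← orderOf_eq_prime (UU_pow hm x u hu) hu1]
    exact orderOf_dvd_natCard u
  rcases hm.classify with ⟨h1, h2, _⟩ | ⟨x, hx⟩ | h3 | h4 | h5 | ⟨x, hx, hfix⟩ | ⟨x, hx, hcard⟩
  · left; exact h2
  · right; left
    obtain ⟨a1, a2, a3, a4, a5⟩ := hm.dihedral x hx
    exact ⟨stabilizer H x, a2, a4⟩
  · right; right; left; exact h3.2.2
  · right; right; right; left; exact h4.2.2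
  · right; right; right; right
    have := h5.2.2
    exact Cfsg.Agent.Lib.ClSmall.equiv_alternating_five h5.2.1
  · exact absurd (hUU x) hx
  · exact absurd (hUU x) hx

theorem fixed_card_le (g : PGL(Fin 2, F)) (hg : g ≠ 1) (S : Finset (ℙ F (Fin 2 → F)))
    (hS : ∀ x ∈ S, g • x = x) : S.card ≤ 2 := by
  classical
  by_contra h
  have h3 : 2 < S.card := by omega
  obtain ⟨a, b, c, ha, hb, hc, hab, hac, hbc⟩ := Finset.two_lt_card_iff.1 h3
  exact hg (pgl_sharp g a b c hab hac hbc (hS a ha) (hS b hb) (hS c hc))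

include hf in
theorem cyc_case {C : Subgroup H} [IsCyclic C] {m : ℕ} (hm : 3 ≤ m) (hC : ∀ t : H, t ∉ C → t * t = 1)
    (S : Finset (ℙ F (Fin 2 → F))) (hS : ∀ x ∈ S, ∃ h : H, orderOf h = m ∧ f h • x = x) : S.card ≤ 2 := by
  rcases S.eq_empty_or_nonempty with rfl | ⟨x, hx⟩
  · simp
  obtain ⟨h, hh, hfx⟩ := hS x hx
  have key : ∀ g : H, orderOf g = m → g ∈ C := by
    intro g hg
    by_contra hgC
    have h1 := hC g hgC
    have h2 : orderOf g ∣ 2 := orderOf_dvd_of_pow_eq_one (by rw [pow_two]; exact h1)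
    have := Nat.le_of_dvd (by norm_num) h2
    omega
  refine fixed_card_le (f h) ?_ S ?_
  · intro h1
    have h2 : h = 1 := hf (by rw [h1, map_one])
    rw [h2, orderOf_one] at hh
    omega
  · intro y hy
    obtain ⟨g, hg, hgy⟩ := hS y hy
    have h1 : (⟨h, key h hh⟩ : C) ∈ Subgroup.zpowers (⟨g, key g hg⟩ : C) := by
      apply Lib.FrobAction3.mem_zpowers_of_isCyclic
      rw [Subgroup.orderOf_mk, Subgroup.orderOf_mk, hh, hg]
    obtain ⟨k, hk⟩ := Subgroup.mem_zpowers_iff.1 h1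
    have h2 : g ^ k = h := congrArg Subtype.val hk
    rw [← h2, map_zpow]
    have h3 : f g ∈ stabilizer (PGL(Fin 2, F)) y := hgy
    exact (stabilizer (PGL(Fin 2, F)) y).zpow_mem h3 k

theorem order_A5 (g : alternatingGroup (Fin 5)) : orderOf g ≤ 5 := by
  have h : ∀ g : Equiv.Perm (Fin 5), Equiv.Perm.sign g = 1 → g ^ 2 = 1 ∨ g ^ 3 = 1 ∨ g ^ 5 = 1 := by decide +kernel
  have h1 := h g.1 (Equiv.Perm.mem_alternatingGroup.1 g.2)
  rw [← Subgroup.orderOf_coe]
  rcases h1 with h1 | h1 | h1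
  · exact (Nat.le_of_dvd (by norm_num) (orderOf_dvd_of_pow_eq_one h1)).trans (by norm_num)
  · exact (Nat.le_of_dvd (by norm_num) (orderOf_dvd_of_pow_eq_one h1)).trans (by norm_num)
  · exact (Nat.le_of_dvd (by norm_num) (orderOf_dvd_of_pow_eq_one h1))

theorem order_S4 (g : Equiv.Perm (Fin 4)) : orderOf g ≤ 4 := by
  have h : ∀ g : Equiv.Perm (Fin 4), g ^ 3 = 1 ∨ g ^ 4 = 1 := by decide +kernel
  rcases h g with h1 | h1
  · exact (Nat.le_of_dvd (by norm_num) (orderOf_dvd_of_pow_eq_one h1)).trans (by norm_num)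
  · exact (Nat.le_of_dvd (by norm_num) (orderOf_dvd_of_pow_eq_one h1))

theorem order_A5_ne_four (g : alternatingGroup (Fin 5)) : orderOf g ≠ 4 := by
  have h : ∀ g : Equiv.Perm (Fin 5), Equiv.Perm.sign g = 1 → g ^ 2 = 1 ∨ g ^ 3 = 1 ∨ g ^ 5 = 1 := by decide +kernel
  have h1 := h g.1 (Equiv.Perm.mem_alternatingGroup.1 g.2)
  rw [← Subgroup.orderOf_coe]
  intro h4
  rcases h1 with h1 | h1 | h1
  · have := orderOf_dvd_of_pow_eq_one h1; rw [h4] at this; omega
  · have := orderOf_dvd_of_pow_eq_one h1; rw [h4] at this; omega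
  · have := orderOf_dvd_of_pow_eq_one h1; rw [h4] at this; omega

def T4 : Finset (Equiv.Perm (Fin 4)) := Finset.univ.filter (fun g : Equiv.Perm (Fin 4) => g ^ 2 ≠ 1 ∧ g ^ 4 = 1)

theorem mem_T4 {g : Equiv.Perm (Fin 4)} : g ∈ T4 ↔ g ^ 2 ≠ 1 ∧ g ^ 4 = 1 := by
  simp [T4]

theorem count_S4 : T4.card = 6 := by
  decide +kernel

include hf in
/-- at most two points are fixed by elements of order `m ≥ 6` -/
theorem card_le_two (hpH : ¬ p ∣ Nat.card H) {m : ℕ} (hm : 6 ≤ m)
    (S : Finset (ℙ F (Fin 2 → F))) (hS : ∀ x ∈ S, ∃ h : H, orderOf h = m ∧ f h • x = x) : S.card ≤ 2 := by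
  rcases S.eq_empty_or_nonempty with rfl | ⟨x, hx⟩
  · simp
  obtain ⟨h, hh, hfx⟩ := hS x hx
  rcases dickson' p f hf hpH with h1 | ⟨C, h1, h2⟩ | ⟨⟨e⟩⟩ | ⟨⟨e⟩⟩ | ⟨⟨e⟩⟩
  · have : IsCyclic (⊤ : Subgroup H) := by
      exact isCyclic_of_surjective (Subgroup.topEquiv (G := H)).symm (Subgroup.topEquiv (G := H)).symm.surjective
    exact cyc_case f hf (C := ⊤) (by omega) (fun t ht => absurd (Subgroup.mem_top t) ht) S hS
  · exact cyc_case f hf (C := C) (by omega) h2 S hS
  · have h3 := order_S4 (e h).1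
    rw [Subgroup.orderOf_coe, MulEquiv.orderOf_eq] at h3
    omega
  · have h3 := order_S4 (e h)
    rw [MulEquiv.orderOf_eq] at h3
    omega
  · have h3 := order_A5 (e h)
    rw [MulEquiv.orderOf_eq] at h3
    omega

include hf in
/-- at most twelve points are fixed by elements of order `4` -/
theorem card_le_twelve (hpH : ¬ p ∣ Nat.card H)
    (S : Finset (ℙ F (Fin 2 → F))) (hS : ∀ x ∈ S, ∃ h : H, orderOf h = 4 ∧ f h • x = x) : S.card ≤ 12 := by
  classical
  rcases S.eq_empty_or_nonempty with rfl | ⟨x, hx⟩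
  · simp
  obtain ⟨h, hh, hfx⟩ := hS x hx
  rcases dickson' p f hf hpH with h1 | ⟨C, h1, h2⟩ | ⟨⟨e⟩⟩ | ⟨⟨e⟩⟩ | ⟨⟨e⟩⟩
  · have : IsCyclic (⊤ : Subgroup H) := by
      exact isCyclic_of_surjective (Subgroup.topEquiv (G := H)).symm (Subgroup.topEquiv (G := H)).symm.surjective
    have := cyc_case f hf (C := ⊤) (by norm_num) (fun t ht => absurd (Subgroup.mem_top t) ht) S hS
    omega
  · have := cyc_case f hf (C := C) (by norm_num) h2 S hS
    omega
  · exfalso
    have h3 : ∀ g : Equiv.Perm (Fin 4), Equiv.Perm.sign g = 1 → g ^ 2 = 1 ∨ g ^ 3 = 1 := by decide +kernel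
    have h4 := h3 (e h).1 (Equiv.Perm.mem_alternatingGroup.1 (e h).2)
    have h5 : orderOf (e h).1 = 4 := by rw [Subgroup.orderOf_coe, MulEquiv.orderOf_eq, hh]
    rcases h4 with h4 | h4
    · have := orderOf_dvd_of_pow_eq_one h4; rw [h5] at this; omega
    · have := orderOf_dvd_of_pow_eq_one h4; rw [h5] at this; omega
  · -- `S₄`
    obtain ⟨T, hTT⟩ : ∃ T, T = T4 := ⟨T4, rfl⟩
    have h6 : S ⊆ T.biUnion (fun g => S.filter (fun x => f (e.symm g) • x = x)) := by
      intro y hy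
      obtain ⟨k, hk, hky⟩ := hS y hy
      rw [Finset.mem_biUnion]
      have hk' : orderOf (e k) = 4 := by rw [MulEquiv.orderOf_eq, hk]
      refine ⟨e k, ?_, ?_⟩
      · rw [hTT, mem_T4]
        refine ⟨?_, ?_⟩
        · intro h7
          have := orderOf_dvd_of_pow_eq_one h7
          rw [hk'] at this
          omega
        · have h11 := pow_orderOf_eq_one (e k)
          rw [hk'] at h11
          exact h11
      · rw [Finset.mem_filter, e.symm_apply_apply]
        exact ⟨hy, hky⟩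
    have hT : T.card = 6 := by rw [hTT]; exact count_S4
    have h10 : S.card ≤ T.card * 2 := by
      refine (Finset.card_le_card h6).trans (Finset.card_biUnion_le_card_mul T _ 2 ?_)
      intro g hg
      rw [hTT, mem_T4] at hg
      refine fixed_card_le (f (e.symm g)) ?_ _ ?_
      · intro h7
        have h8 : e.symm g = 1 := hf (by rw [h7, map_one])
        have h9 : g = 1 := e.symm.injective (by rw [h8, map_one])
        exact hg.1 (by rw [h9, one_pow])
      · intro y hy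
        exact (Finset.mem_filter.1 hy).2
    omega
  · exact absurd (by rw [MulEquiv.orderOf_eq, hh] : orderOf (e h) = 4) (order_A5_ne_four (e h))

end

end Cfsg.Agent.Lib.ExtraTri
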