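import Mathlib
import Cfsg.Agent.Lib.ExtraTriA
import Cfsg.Agent.Lib.GroupUtil

/-!
Automizers of subgroups of order `p²` in an extraspecial Sylow subgroup of order `p³` (helper17).
-/

set_option autoImplicit false
set_option linter.unusedSectionVars false

namespace Cfsg.Agent.Lib.ExtraTri

open Subgroup

section pw

variable {p : ℕ} [hp : Fact p.Prime] {G : Type*} [Group G]

/-- exponentiation with exponents in `ZMod p` -/
def pw (x : G) (a : ZMod p) : G := x ^ a.val

theorem pw_def (x : G) (a : ZMod p) : pw x a = x ^ a.val := rfl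

theorem pow_eq_of_mod {x : G} (hx : x ^ p = 1) {m n : ℕ} (h : (m : ZMod p) = n) : x ^ m = x ^ n := by
  rw [ZMod.natCast_eq_natCast_iff'] at h
  rw [← Nat.mod_add_div m p, ← Nat.mod_add_div n p, pow_add, pow_add, pow_mul, pow_mul, hx, one_pow, one_pow, h]

theorem pw_natCast {x : G} (hx : x ^ p = 1) (n : ℕ) : pw x (n : ZMod p) = x ^ n :=
  pow_eq_of_mod hx (by rw [ZMod.natCast_val, ZMod.cast_id])

theorem pw_zero (x : G) : pw x (0 : ZMod p) = 1 := by rw [pw_def, ZMod.val_zero, pow_zero]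

theorem pw_one (x : G) : pw x (1 : ZMod p) = x := by
  rw [pw_def, ZMod.val_one_eq_one_mod, Nat.mod_eq_of_lt hp.out.one_lt, pow_one]

theorem one_pw (a : ZMod p) : pw (1 : G) a = 1 := by rw [pw_def, one_pow]

theorem pw_add {x : G} (hx : x ^ p = 1) (a b : ZMod p) : pw x (a + b) = pw x a * pw x b := by
  rw [pw_def, pw_def, pw_def, ← pow_add]
  apply pow_eq_of_mod hx
  push_cast
  simp

theorem pw_mul {x : G} (hx : x ^ p = 1) (a b : ZMod p) : pw x (a * b) = pw (pw x a) b := by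
  rw [pw_def, pw_def, pw_def, ← pow_mul]
  apply pow_eq_of_mod hx
  push_cast
  simp

theorem pw_pow {x : G} (hx : x ^ p = 1) (a : ZMod p) (n : ℕ) : (pw x a) ^ n = pw x (a * (n : ZMod p)) := by
  rw [pw_def, pw_def, ← pow_mul]
  apply pow_eq_of_mod hx
  push_cast
  simp

theorem pw_p {x : G} (hx : x ^ p = 1) (a : ZMod p) : (pw x a) ^ p = 1 := by
  rw [pw_def, ← pow_mul, mul_comm, pow_mul, hx, one_pow]

theorem conj_pw (g x : G) (a : ZMod p) : g * pw x a * g⁻¹ = pw (g * x * g⁻¹) a := by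
  rw [pw_def, pw_def, conj_pow]

theorem mul_pw {x y : G} (h : Commute x y) (a : ZMod p) : pw (x * y) a = pw x a * pw y a := by
  rw [pw_def, pw_def, pw_def, h.mul_pow]

theorem commute_pw {x y : G} (h : Commute x y) (a b : ZMod p) : Commute (pw x a) (pw y b) :=
  h.pow_pow _ _

theorem pw_eq_one {x : G} (hx1 : x ≠ 1) (hx : x ^ p = 1) {a : ZMod p} (h : pw x a = 1) : a = 0 := by
  have h1 : orderOf x = p := orderOf_eq_prime hx hx1
  have h2 := orderOf_dvd_of_pow_eq_one (show x ^ a.val = 1 from h)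
  rw [h1] at h2
  rw [← ZMod.natCast_eq_zero_iff, ZMod.natCast_val, ZMod.cast_id] at h2
  exact h2

theorem pw_inj {x : G} (hx1 : x ≠ 1) (hx : x ^ p = 1) {a b : ZMod p} (h : pw x a = pw x b) : a = b := by
  have h1 : pw x (a - b) = 1 := by
    have h2 : pw x (a - b) * pw x b = pw x b := by rw [← pw_add hx, sub_add_cancel, h]
    exact mul_eq_right.1 h2
  exact sub_eq_zero.1 (pw_eq_one hx1 hx h1)

theorem mem_of_pw {H : Subgroup G} {x : G} (hx : x ∈ H) (a : ZMod p) : pw x a ∈ H := H.pow_mem hx _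

end pw

section act

variable {p : ℕ} [hp : Fact p.Prime] {G : Type*} [Group G]

/-- `g` acts on the pair `v, z` by the matrix with columns `(a,b)`, `(c,d)` -/
def Act (v z g : G) (a b c d : ZMod p) : Prop :=
  g * v * g⁻¹ = pw v a * pw z b ∧ g * z * g⁻¹ = pw v c * pw z d

theorem Act.mul {v z g g' : G} {a b c d a' b' c' d' : ZMod p} (hv : v ^ p = 1) (hz : z ^ p = 1)
    (hvz : Commute v z) (h : Act v z g a b c d) (h' : Act v z g' a' b' c' d') :
    Act v z (g * g') (a * a' + c * b') (b * a' + d * b') (a * c' + c * d') (b * c' + d * d') := by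
  have key : ∀ s t : ZMod p, g * (pw v s * pw z t) * g⁻¹ = pw v (a * s + c * t) * pw z (b * s + d * t) := by
    intro s t
    have h1 : g * (pw v s * pw z t) * g⁻¹ = (g * pw v s * g⁻¹) * (g * pw z t * g⁻¹) := by group
    rw [h1, conj_pw, conj_pw, h.1, h.2, mul_pw (commute_pw hvz _ _), mul_pw (commute_pw hvz _ _),
      ← pw_mul hv, ← pw_mul hz, ← pw_mul hv, ← pw_mul hz, pw_add hv, pw_add hz]
    have h2 : Commute (pw z (b * s)) (pw v (c * t)) := commute_pw hvz.symm _ _
    rw [mul_assoc, ← mul_assoc (pw z (b * s)), h2.eq]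
    group
  constructor
  · have h1 : g * g' * v * (g * g')⁻¹ = g * (g' * v * g'⁻¹) * g⁻¹ := by group
    rw [h1, h'.1, key]
  · have h1 : g * g' * z * (g * g')⁻¹ = g * (g' * z * g'⁻¹) * g⁻¹ := by group
    rw [h1, h'.2, key]

theorem exists_U {v z g : G} {t : ZMod p} (hv : v ^ p = 1) (hz : z ^ p = 1) (hvz : Commute v z) (ht : t ≠ 0)
    (h : Act v z g 1 t 0 1) (s : ZMod p) : ∃ g', Act v z g' 1 s 0 1 := by
  have h1 : ∀ n : ℕ, Act v z (g ^ n) 1 ((n : ZMod p) * t) 0 1 := by
    intro n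
    induction n with
    | zero =>
      rw [pow_zero]
      constructor
      · rw [one_mul, inv_one, mul_one, pw_one, Nat.cast_zero, zero_mul, pw_zero, mul_one]
      · rw [one_mul, inv_one, mul_one, pw_zero, pw_one, one_mul]
    | succ n ih =>
      have h2 := Act.mul hv hz hvz ih h
      rw [pow_succ]
      convert h2 using 1 <;> push_cast <;> ring
  refine ⟨g ^ (s / t).val, ?_⟩
  have h2 := h1 (s / t).val
  rw [ZMod.natCast_val, ZMod.cast_id, div_mul_cancel₀ _ ht] at h2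
  exact h2

theorem exists_L {v z g : G} {t : ZMod p} (hv : v ^ p = 1) (hz : z ^ p = 1) (hvz : Commute v z) (ht : t ≠ 0)
    (h : Act v z g 1 0 t 1) (s : ZMod p) : ∃ g', Act v z g' 1 0 s 1 := by
  have h1 : ∀ n : ℕ, Act v z (g ^ n) 1 0 ((n : ZMod p) * t) 1 := by
    intro n
    induction n with
    | zero =>
      rw [pow_zero]
      constructor
      · rw [one_mul, inv_one, mul_one, pw_one, pw_zero, mul_one]
      · rw [one_mul, inv_one, mul_one, Nat.cast_zero, zero_mul, pw_zero, pw_one, one_mul]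
    | succ n ih =>
      have h2 := Act.mul hv hz hvz ih h
      rw [pow_succ]
      convert h2 using 1 <;> push_cast <;> ring
  refine ⟨g ^ (s / t).val, ?_⟩
  have h2 := h1 (s / t).val
  rw [ZMod.natCast_val, ZMod.cast_id, div_mul_cancel₀ _ ht] at h2
  exact h2

/-- the diagonal elements -/
theorem exists_diag {v z g1 g2 : G} {t1 t2 : ZMod p} (hv : v ^ p = 1) (hz : z ^ p = 1) (hvz : Commute v z)
    (ht1 : t1 ≠ 0) (ht2 : t2 ≠ 0) (h1 : Act v z g1 1 t1 0 1) (h2 : Act v z g2 1 0 t2 1) {l m : ZMod p}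
    (hlm : l * m = 1) : ∃ s, Act v z s l 0 0 m := by
  obtain ⟨u1, hu1⟩ := exists_U hv hz hvz ht1 h1 (-m)
  obtain ⟨l1, hl1⟩ := exists_L hv hz hvz ht2 h2 l
  obtain ⟨u2, hu2⟩ := exists_U hv hz hvz ht1 h1 1
  obtain ⟨l2, hl2⟩ := exists_L hv hz hvz ht2 h2 (-1)
  have e1 := Act.mul hv hz hvz (Act.mul hv hz hvz hl1 hu1) hl1
  have e2 := Act.mul hv hz hvz (Act.mul hv hz hvz hl2 hu2) hl2
  have e3 := Act.mul hv hz hvz e1 e2
  refine ⟨l1 * u1 * l1 * (l2 * u2 * l2), ?_⟩
  convert e3 using 1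
  · linear_combination l * hlm
  · linear_combination hlm
  · linear_combination -hlm
  · ring

end act

end Cfsg.Agent.Lib.ExtraTri
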