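import Mathlib
import Cfsg.Agent.Lib.ExtraTriB

set_option autoImplicit false
set_option linter.unusedSectionVars false

namespace Cfsg.Agent.Lib.ExtraTri

open Subgroup
open scoped Pointwise

variable {p : ℕ} [hp : Fact p.Prime] {G : Type*} [Group G] [Finite G]

/-- the Sylow subgroup is extraspecial of order `p³` and exponent `p`, with centre `⟨z⟩` -/
structure Ext (P : Sylow p G) (z : G) : Prop where
  exp : ∀ x ∈ P, x ^ p = 1
  zP : z ∈ P
  z1 : z ≠ 1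
  cen : ∀ x ∈ P, x * z = z * x
  com : ∀ x ∈ P, ∀ y ∈ P, ∃ j : ZMod p, x * y * x⁻¹ = y * pw z j
  cen' : ∀ x ∈ P, (∀ y ∈ P, x * y = y * x) → ∃ j : ZMod p, x = pw z j
  card : Nat.card P = p ^ 3

variable {P : Sylow p G} {z : G}

theorem Ext.zp (E : Ext P z) : z ^ p = 1 := E.exp z E.zP

theorem Ext.comm_pw (E : Ext P z) {x : G} (hx : x ∈ P) (j : ZMod p) : x * pw z j * x⁻¹ = pw z j := by
  rw [conj_pw, E.cen x hx, mul_inv_cancel_right]

theorem Ext.noncentral (E : Ext P z) {v : G} (hv : v ∈ P) (hvz : ∀ j : ZMod p, v ≠ pw z j) :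
    ∃ w ∈ P, ∃ t : ZMod p, t ≠ 0 ∧ w * v * w⁻¹ = v * pw z t := by
  by_contra hcon
  push Not at hcon
  have h1 : ∀ y ∈ P, v * y = y * v := by
    intro y hy
    obtain ⟨j, hj⟩ := E.com y hy v hv
    by_cases hj0 : j = 0
    · rw [hj0, pw_zero, mul_one, mul_inv_eq_iff_eq_mul] at hj
      exact hj.symm
    · exact absurd hj (hcon y hy j hj0)
  obtain ⟨j, hj⟩ := E.cen' v hv h1
  exact hvz j hj

theorem Ext.act_of (E : Ext P z) {v w : G} (hw : w ∈ P) {t : ZMod p} (h : w * v * w⁻¹ = v * pw z t) :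
    Act v z w 1 t 0 1 := by
  constructor
  · rw [h, pw_one]
  · rw [pw_zero, pw_one, one_mul, E.cen w hw, mul_inv_cancel_right]

theorem Ext.trans_all (E : Ext P z) {v : G} (hv : v ∈ P) (hvz : ∀ j : ZMod p, v ≠ pw z j) (s : ZMod p) :
    ∃ y ∈ P, y * v * y⁻¹ = v * pw z s := by
  obtain ⟨w, hw, t, ht, h⟩ := E.noncentral hv hvz
  have h1 : ∀ n : ℕ, w ^ n * v * (w ^ n)⁻¹ = v * pw z ((n : ZMod p) * t) := by
    intro n
    induction n with
    | zero => rw [pow_zero, one_mul, inv_one, mul_one, Nat.cast_zero, zero_mul, pw_zero, mul_one]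
    | succ n ih =>
      have e1 : w ^ (n + 1) * v * (w ^ (n + 1))⁻¹ = w * (w ^ n * v * (w ^ n)⁻¹) * w⁻¹ := by
        rw [pow_succ']; group
      have e2 : w * (v * pw z ((n : ZMod p) * t)) * w⁻¹ = (w * v * w⁻¹) * (w * pw z ((n : ZMod p) * t) * w⁻¹) := by
        group
      rw [e1, ih, e2, h, E.comm_pw hw, mul_assoc, ← pw_add E.zp]
      congr 2
      push_cast
      ring
  refine ⟨w ^ (s / t).val, pow_mem hw _, ?_⟩
  rw [h1, ZMod.natCast_val, ZMod.cast_id, div_mul_cancel₀ _ ht]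

/-- the elements acting on `v, z` as elements of `P` do -/
def KK (v z : G) (hz : ∀ j : ZMod p, True) : Subgroup G where
  carrier := {g | g * z * g⁻¹ = z ∧ ∃ j : ℕ, g * v * g⁻¹ = v * z ^ j}
  one_mem' := ⟨by group, 0, by group⟩
  mul_mem' := by
    rintro a b ⟨ha, i, hi⟩ ⟨hb, j, hj⟩
    refine ⟨?_, i + j, ?_⟩
    · have : a * b * z * (a * b)⁻¹ = a * (b * z * b⁻¹) * a⁻¹ := by group
      rw [this, hb, ha]
    · have : a * b * v * (a * b)⁻¹ = a * (b * v * b⁻¹) * a⁻¹ := by group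
      rw [this, hj]
      have : a * (v * z ^ j) * a⁻¹ = (a * v * a⁻¹) * (a * z * a⁻¹) ^ j := by rw [conj_pow]; group
      rw [this, hi, ha, mul_assoc, ← pow_add]
  inv_mem' := by
    rintro a ⟨ha, i, hi⟩
    have h1 : a⁻¹ * z * a⁻¹⁻¹ = z := by
      nth_rewrite 1 [← ha]; group
    refine ⟨h1, (orderOf z - 1) * i, ?_⟩
    have h2 : z ^ ((orderOf z - 1) * i) = (z ^ i)⁻¹ := by
      rw [eq_inv_iff_mul_eq_one, ← pow_add]
      have h3 : (orderOf z - 1) * i + i = orderOf z * i := by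
        have := orderOf_pos z
        obtain ⟨k, hk⟩ : ∃ k, orderOf z = k + 1 := ⟨orderOf z - 1, by omega⟩
        rw [hk]; simp; ring
      rw [h3, pow_mul, pow_orderOf_eq_one, one_pow]
    rw [h2, eq_mul_inv_iff_mul_eq]
    have h4 : a⁻¹ * (a * v * a⁻¹) * a = a⁻¹ * (v * z ^ i) * a := by rw [hi]
    have h5 : a⁻¹ * (v * z ^ i) * a = (a⁻¹ * v * a⁻¹⁻¹) * (a⁻¹ * z * a⁻¹⁻¹) ^ i := by rw [conj_pow]; group
    rw [h5, h1] at h4
    rw [← h4]; group

/-- Frattini argument: a diagonal element can be taken in `N_G(P)`. -/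
theorem Ext.to_normalizer (E : Ext P z) {v s : G} (hv : v ∈ P) (hvz : ∀ j : ZMod p, v ≠ pw z j)
    {l m : ZMod p} (hl : l ≠ 0) (hm : m ≠ 0) (hs : Act v z s l 0 0 m) :
    ∃ n ∈ normalizer ((P : Subgroup G) : Set G), Act v z n l 0 0 m := by
  have hvp : v ^ p = 1 := E.exp v hv
  have hzv : Commute v z := E.cen v hv
  obtain ⟨hs1, hs2⟩ := hs
  rw [pw_zero, mul_one] at hs1
  rw [pw_zero, one_mul] at hs2
  let K := KK (p := p) v z (fun _ => trivial)
  have hPK : (P : Subgroup G) ≤ K := by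
    intro y hy
    refine ⟨by rw [E.cen y hy, mul_inv_cancel_right], ?_⟩
    obtain ⟨j, hj⟩ := E.com y hy v hv
    exact ⟨j.val, hj⟩
  have hs1' : s * pw v l⁻¹ * s⁻¹ = v := by
    rw [conj_pw, hs1, ← pw_mul hvp, mul_inv_cancel₀ hl, pw_one]
  have hs2' : s * pw z m⁻¹ * s⁻¹ = z := by
    rw [conj_pw, hs2, ← pw_mul E.zp, mul_inv_cancel₀ hm, pw_one]
  have hsP : ∀ y ∈ P, s * y * s⁻¹ ∈ K := by
    intro y hy
    constructor
    · have e1 : s * y * s⁻¹ * z * (s * y * s⁻¹)⁻¹ = s * (y * (s⁻¹ * z * s) * y⁻¹) * s⁻¹ := by group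
      have e2 : s⁻¹ * z * s = pw z m⁻¹ := by
        nth_rewrite 1 [← hs2']; group
      rw [e1, e2, E.comm_pw hy, hs2']
    · obtain ⟨j, hj⟩ := E.com y hy v hv
      have e1 : s * y * s⁻¹ * v * (s * y * s⁻¹)⁻¹ = s * (y * (s⁻¹ * v * s) * y⁻¹) * s⁻¹ := by group
      have e2 : s⁻¹ * v * s = pw v l⁻¹ := by
        nth_rewrite 1 [← hs1']; group
      have e3 : y * pw v l⁻¹ * y⁻¹ = pw v l⁻¹ * pw z (j * l⁻¹) := by
        rw [conj_pw, hj, mul_pw (show Commute v (pw z j) from by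
          have := commute_pw hzv 1 j
          rwa [pw_one] at this), ← pw_mul E.zp]
      refine ⟨(m * (j * l⁻¹)).val, ?_⟩
      rw [e1, e2, e3]
      have e4 : s * (pw v l⁻¹ * pw z (j * l⁻¹)) * s⁻¹ = (s * pw v l⁻¹ * s⁻¹) * (s * pw z (j * l⁻¹) * s⁻¹) := by group
      rw [e4, hs1', conj_pw, hs2, ← pw_mul E.zp]
      rfl
  have hsP' : ((s • P : Sylow p G) : Subgroup G) ≤ K := by
    intro x hx
    rw [Sylow.coe_subgroup_smul, Subgroup.mem_pointwise_smul_iff_inv_smul_mem] at hx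
    have h1 := hsP _ hx
    have h2 : s * ((MulAut.conj s)⁻¹ • x) * s⁻¹ = x := by
      rw [← map_inv, MulAut.smul_def, MulAut.conj_apply]; group
    rwa [h2] at h1
  obtain ⟨k, hk⟩ := MulAction.exists_smul_eq K ((s • P).subtype hsP') (P.subtype hPK)
  have hks : ∀ x ∈ (P : Subgroup G), (k : G) * s * x * ((k : G) * s)⁻¹ ∈ (P : Subgroup G) := by
    intro x hx
    have h1 : (⟨s * x * s⁻¹, hsP x hx⟩ : K) ∈ ((s • P).subtype hsP' : Subgroup K) := by
      rw [Sylow.coe_subtype, mem_subgroupOf, Sylow.coe_subgroup_smul]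
      exact Subgroup.smul_mem_pointwise_smul x (MulAut.conj s) _ hx
    have h2 : k * ⟨s * x * s⁻¹, hsP x hx⟩ * k⁻¹ ∈ ((k • (s • P).subtype hsP' : Sylow p K) : Subgroup K) := by
      rw [Sylow.coe_subgroup_smul]
      exact Subgroup.smul_mem_pointwise_smul _ (MulAut.conj k) _ h1
    rw [hk, Sylow.coe_subtype, mem_subgroupOf] at h2
    have h3 : (k : G) * s * x * ((k : G) * s)⁻¹ = ((k * ⟨s * x * s⁻¹, hsP x hx⟩ * k⁻¹ : K) : G) := by
      change (k : G) * s * x * ((k : G) * s)⁻¹ = (k : G) * (s * x * s⁻¹) * (k : G)⁻¹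
      group
    rw [h3]
    exact h2
  have hksN : (k : G) * s ∈ normalizer ((P : Subgroup G) : Set G) :=
    Lib.GroupUtil.mem_normalizer_of_conj_le hks
  obtain ⟨hk1, j, hk2⟩ := k.2
  obtain ⟨y, hy, hyj⟩ := E.trans_all hv hvz (j : ZMod p)
  rw [pw_natCast E.zp] at hyj
  refine ⟨y⁻¹ * ((k : G) * s), mul_mem (inv_mem (le_normalizer hy)) hksN, ?_, ?_⟩
  · rw [pw_zero, mul_one]
    have e1 : y⁻¹ * ((k : G) * s) * v * (y⁻¹ * ((k : G) * s))⁻¹ = y⁻¹ * ((k : G) * (s * v * s⁻¹) * (k : G)⁻¹) * y := by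
      group
    rw [e1, hs1, conj_pw, hk2, ← hyj]
    have e2 : y⁻¹ * pw (y * v * y⁻¹) l * y = y⁻¹ * pw (y * v * y⁻¹) l * y⁻¹⁻¹ := by group
    rw [e2, conj_pw]
    congr 1
    group
  · rw [pw_zero, one_mul]
    have e1 : y⁻¹ * ((k : G) * s) * z * (y⁻¹ * ((k : G) * s))⁻¹ = y⁻¹ * ((k : G) * (s * z * s⁻¹) * (k : G)⁻¹) * y⁻¹⁻¹ := by
      group
    rw [e1, hs2, conj_pw, hk1, conj_pw, E.cen _ (inv_mem hy), mul_inv_cancel_right]

end Cfsg.Agent.Lib.ExtraTri
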