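import Mathlib
import Cfsg.Agent.Lib.ExtraTriC

set_option autoImplicit false
set_option linter.unusedSectionVars false

namespace Cfsg.Agent.Lib.ExtraTri

open Subgroup Matrix Cfsg.Agent.Lib.ClProjLine
open scoped Pointwise LinearAlgebra.Projectivization MatrixGroups

variable {p : ℕ} [hp : Fact p.Prime]

/-- coordinates for a module of order `p²` -/
theorem exists_lin_add {V : Type*} [AddCommGroup V] [Module (ZMod p) V] [Finite V] (hcard : Nat.card V = p ^ 2) :
    ∃ (ε : V →+ (Fin 2 → ZMod p)) (φ : (V ≃+ V) → GL (Fin 2) (ZMod p)),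
      Function.Bijective ε ∧ (∀ g h : V ≃+ V, φ (h.trans g) = φ g * φ h) ∧
      ∀ (h : V ≃+ V) (a : V), (φ h : Matrix (Fin 2) (Fin 2) (ZMod p)) *ᵥ ε a = ε (h a) := by
  classical
  have hfin : Module.Finite (ZMod p) V := Module.Finite.of_finite
  have hrank : Module.finrank (ZMod p) V = 2 := by
    have h1 := FiniteField.pow_finrank_eq_natCard p V
    rw [hcard] at h1
    exact Nat.pow_right_injective (Fact.out : p.Prime).two_le h1
  let b := Module.finBasisOfFinrankEq (ZMod p) V hrank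
  let T : (V →ₗ[ZMod p] V) ≃ₐ[ZMod p] Matrix (Fin 2) (Fin 2) (ZMod p) := LinearMap.toMatrixAlgEquiv b
  let ψ : (V ≃+ V) → (V →ₗ[ZMod p] V) := fun h => (AddEquiv.toAddMonoidHom h).toZModLinearMap p
  have hψ : ∀ g h : V ≃+ V, ψ (h.trans g) = ψ g * ψ h := by
    intro g h
    exact LinearMap.ext fun x => rfl
  have hinv1 : ∀ g : V ≃+ V, ψ g * ψ g.symm = 1 := by
    intro g
    exact LinearMap.ext fun x => g.apply_symm_apply x
  have hinv2 : ∀ g : V ≃+ V, ψ g.symm * ψ g = 1 := by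
    intro g
    exact LinearMap.ext fun x => g.symm_apply_apply x
  refine ⟨b.equivFun.toLinearMap.toAddMonoidHom, fun g => ⟨T (ψ g), T (ψ g.symm), by rw [← map_mul, hinv1, map_one],
    by rw [← map_mul, hinv2, map_one]⟩, b.equivFun.bijective, ?_, ?_⟩
  · intro g h
    apply Units.ext
    change T (ψ (h.trans g)) = T (ψ g) * T (ψ h)
    rw [hψ, map_mul]
  · intro h a
    exact LinearMap.toMatrix_mulVec_repr b b (ψ h) a

/-- coordinates for an elementary abelian group of order `p²` -/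
theorem exists_lin {A : Type*} [CommGroup A] [Finite A] (hpA : ∀ a : A, a ^ p = 1) (hcard : Nat.card A = p ^ 2) :
    ∃ (ε : Additive A →+ (Fin 2 → ZMod p)) (φ : MulAut A →* GL (Fin 2) (ZMod p)),
      Function.Bijective ε ∧
      ∀ (h : MulAut A) (a : A), (φ h : Matrix (Fin 2) (Fin 2) (ZMod p)) *ᵥ ε (Additive.ofMul a) = ε (Additive.ofMul (h a)) := by
  let _ : Module (ZMod p) (Additive A) := AddCommGroup.zmodModule (n := p) (by
    intro x
    exact congrArg Additive.ofMul (hpA x.toMul))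
  have hfinA : Finite (Additive A) := inferInstanceAs (Finite A)
  obtain ⟨ε, φ, h1, h2, h3⟩ := exists_lin_add (p := p) (V := Additive A) hcard
  refine ⟨ε, MonoidHom.mk' (fun h => φ (MulEquiv.toAdditive h)) ?_, h1, ?_⟩
  · intro g h
    rw [← h2]
    rfl
  · intro h a
    exact h3 (MulEquiv.toAdditive h) (Additive.ofMul a)

variable {G : Type*} [Group G] [Finite G]

/-- the action of `N_G(P)` on `P/Z(P)` -/
noncomputable def toAut (P : Sylow p G) :
    ↥(normalizer ((P : Subgroup G) : Set G)) →* MulAut (↥P ⧸ center ↥P) :=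
  MonoidHom.mk' (fun n => QuotientGroup.congr (center ↥P) (center ↥P) ((P : Subgroup G).normalizerMonoidHom n)
    (Subgroup.characteristic_iff_map_eq.1 inferInstance _)) (by
      intro a b
      apply MulEquiv.ext
      rintro ⟨x⟩
      change ((((P : Subgroup G).normalizerMonoidHom (a * b)) x : ↥P) : ↥P ⧸ center ↥P) =
        ((((P : Subgroup G).normalizerMonoidHom a) (((P : Subgroup G).normalizerMonoidHom b) x) : ↥P) : ↥P ⧸ center ↥P)
      rw [map_mul]
      rfl)

theorem toAut_mk {P : Sylow p G} (n : ↥(normalizer ((P : Subgroup G) : Set G))) (x : ↥P) :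
    toAut P n (x : ↥P ⧸ center ↥P) = (((P : Subgroup G).normalizerMonoidHom n x : ↥P) : ↥P ⧸ center ↥P) := rfl

variable {P : Sylow p G} {z : G}

theorem Ext.mem_center (E : Ext P z) {x : ↥P} : x ∈ center ↥P ↔ ∃ j : ZMod p, (x : G) = pw z j := by
  constructor
  · intro h
    apply E.cen' x x.2
    intro y hy
    exact (congrArg Subtype.val (Subgroup.mem_center_iff.1 h ⟨y, hy⟩)).symm
  · rintro ⟨j, hj⟩
    rw [Subgroup.mem_center_iff]
    intro y
    apply Subtype.ext
    change (y : G) * x = x * y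
    rw [hj]
    have := E.comm_pw y.2 j
    rwa [mul_inv_eq_iff_eq_mul] at this

/-- the commutative group structure of `P/Z(P)` -/
theorem Ext.quot_comm (E : Ext P z) (a b : ↥P ⧸ center ↥P) : a * b = b * a := by
  obtain ⟨x, rfl⟩ := QuotientGroup.mk_surjective a
  obtain ⟨y, rfl⟩ := QuotientGroup.mk_surjective b
  rw [← QuotientGroup.mk_mul, ← QuotientGroup.mk_mul, eq_comm, QuotientGroup.eq, E.mem_center]
  obtain ⟨j, hj⟩ := E.com x x.2 y y.2
  refine ⟨j, ?_⟩
  change ((y : G) * x)⁻¹ * ((x : G) * y) = pw z j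
  rw [mul_inv_eq_iff_eq_mul] at hj
  rw [hj, inv_mul_eq_iff_eq_mul, mul_assoc, mul_assoc]
  congr 1
  have := E.comm_pw x.2 j
  rw [mul_inv_eq_iff_eq_mul] at this
  exact this.symm

theorem Ext.lin (E : Ext P z) (hcen : Nat.card (center ↥P) = p) :
    ∃ (ε : ↥P → (Fin 2 → ZMod p)) (ρ : ↥(normalizer ((P : Subgroup G) : Set G)) →* GL (Fin 2) (ZMod p)),
      (∀ x y, ε (x * y) = ε x + ε y) ∧ (∀ x, ε x = 0 ↔ ∃ j : ZMod p, (x : G) = pw z j) ∧
      Function.Surjective ε ∧
      ∀ n x, (ρ n : Matrix (Fin 2) (Fin 2) (ZMod p)) *ᵥ ε x = ε ((P : Subgroup G).normalizerMonoidHom n x) := by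
  let _ : CommGroup (↥P ⧸ center ↥P) := { (inferInstance : Group (↥P ⧸ center ↥P)) with mul_comm := E.quot_comm }
  have h1 : ∀ a : ↥P ⧸ center ↥P, a ^ p = 1 := by
    intro a
    obtain ⟨x, rfl⟩ := QuotientGroup.mk_surjective a
    rw [← QuotientGroup.mk_pow]
    have : x ^ p = 1 := Subtype.ext (E.exp x x.2)
    rw [this]; rfl
  have h2 : Nat.card (↥P ⧸ center ↥P) = p ^ 2 := by
    have h3 := Subgroup.card_eq_card_quotient_mul_card_subgroup (center ↥P)
    rw [hcen] at h3
    have h4 : Nat.card ↥P = p ^ 3 := E.card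
    rw [h4] at h3
    have h5 : p ^ 2 * p = Nat.card (↥P ⧸ center ↥P) * p := by rw [← h3]; ring
    exact (Nat.eq_of_mul_eq_mul_right hp.out.pos h5).symm
  obtain ⟨ε, φ, hε, hφ⟩ := exists_lin h1 h2
  refine ⟨fun x => ε (Additive.ofMul (x : ↥P ⧸ center ↥P)), φ.comp (toAut P), ?_, ?_, ?_, ?_⟩
  · intro x y
    rw [← map_add]
    rfl
  · intro x
    rw [← E.mem_center, ← QuotientGroup.eq_one_iff]
    constructor
    · intro h
      have h3 : Additive.ofMul (x : ↥P ⧸ center ↥P) = 0 := hε.1 (by rw [map_zero]; exact h)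
      exact h3
    · intro h
      have h3 : Additive.ofMul (x : ↥P ⧸ center ↥P) = 0 := h
      change ε (Additive.ofMul (x : ↥P ⧸ center ↥P)) = 0
      rw [h3, map_zero]
  · intro v
    obtain ⟨a, ha⟩ := hε.2 v
    obtain ⟨x, hx⟩ := QuotientGroup.mk_surjective (Additive.toMul a)
    refine ⟨x, ?_⟩
    change ε (Additive.ofMul (x : ↥P ⧸ center ↥P)) = v
    rw [hx]
    exact ha
  · intro n x
    exact hφ (toAut P n) (x : ↥P ⧸ center ↥P)

end Cfsg.Agent.Lib.ExtraTri
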