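import Mathlib
import Cfsg.Agent.Lib.ExtraTriD

set_option autoImplicit false
set_option linter.unusedSectionVars false

namespace Cfsg.Agent.Lib.ExtraTri

open Subgroup Matrix Cfsg.Agent.Lib.ClProjLine
open scoped Pointwise LinearAlgebra.Projectivization MatrixGroups

variable {p : ℕ} [hp : Fact p.Prime] {G : Type*} [Group G] [Finite G] {P : Sylow p G} {z : G}

theorem Act.pow {v z g : G} {a d : ZMod p} (hv : v ^ p = 1) (hz : z ^ p = 1)
    (hvz : Commute v z) (h : Act v z g a 0 0 d) (n : ℕ) : Act v z (g ^ n) (a ^ n) 0 0 (d ^ n) := by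
  induction n with
  | zero =>
    rw [pow_zero, pow_zero, pow_zero]
    constructor
    · rw [one_mul, inv_one, mul_one, pw_one, pw_zero, mul_one]
    · rw [one_mul, inv_one, mul_one, pw_zero, pw_one, one_mul]
  | succ n ih =>
    have h2 := Act.mul hv hz hvz ih h
    rw [pow_succ]
    convert h2 using 1 <;> ring

theorem Ext.conj_pw_pw (E : Ext P z) {v w : G} (hv : v ∈ P) (hw : w ∈ P) {t : ZMod p}
    (h : w * v * w⁻¹ = v * pw z t) (a b : ZMod p) :
    pw w a * pw v b * (pw w a)⁻¹ = pw v b * pw z (a * t * b) := by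
  have h1 : ∀ n : ℕ, w ^ n * v * (w ^ n)⁻¹ = v * pw z ((n : ZMod p) * t) := by
    intro n
    induction n with
    | zero => rw [pow_zero, one_mul, inv_one, mul_one, Nat.cast_zero, zero_mul, pw_zero, mul_one]
    | succ n ih =>
      have e1 : w ^ (n + 1) * v * (w ^ (n + 1))⁻¹ = w * (w ^ n * v * (w ^ n)⁻¹) * w⁻¹ := by
        rw [pow_succ']; group
      have e2 : w * (v * pw z ((n : ZMod p) * t)) * w⁻¹ = (w * v * w⁻¹) * (w * pw z ((n : ZMod p) * t) * w⁻¹) := by
        group
      rw [e1, ih, e2, h, E.comm_pw hw, mul_assoc, ← pw_add E.zp]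
      congr 2
      push_cast
      ring
  have h2 := h1 a.val
  rw [ZMod.natCast_val, ZMod.cast_id] at h2
  have h3 : pw w a * v * (pw w a)⁻¹ = v * pw z (a * t) := h2
  rw [conj_pw, h3, mul_pw (show Commute v (pw z (a * t)) from by
          have := commute_pw (show Commute v z from E.cen v hv) 1 (a * t)
          rwa [pw_one] at this), ← pw_mul E.zp]

theorem Ext.key (E : Ext P z) (hcen : Nat.card (center ↥P) = p) {l : ZMod p} (hl : l ≠ 0) :
    ∃ (f0 : ↥(normalizer ((P : Subgroup G) : Set G)) →* PGL(Fin 2, ZMod p))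
      (pt : ↥P → ℙ (ZMod p) (Fin 2 → ZMod p)),
      ¬ p ∣ Nat.card f0.range ∧
      (∀ (v : ↥P) (n : ↥(normalizer ((P : Subgroup G) : Set G))), (∀ j : ZMod p, (v : G) ≠ pw z j) →
        Act (v : G) z (n : G) l 0 0 l⁻¹ → f0 n • pt v = pt v ∧ orderOf (l ^ 3) ∣ orderOf (f0 n)) ∧
      (∀ v v' : ↥P, (∀ j : ZMod p, (v : G) ≠ pw z j) → (∀ j : ZMod p, (v' : G) ≠ pw z j) → pt v = pt v' →
        ∃ a j : ZMod p, (v : G) = pw (v' : G) a * pw z j) ∧
      (∀ x, ∃ v : ↥P, (∀ j : ZMod p, (v : G) ≠ pw z j) ∧ pt v = x) := by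
  classical
  obtain ⟨ε, ρ, hadd, hker, hsurj, hρ⟩ := E.lin hcen
  have hε1 : ε 1 = 0 := by
    have := hadd 1 1
    rw [one_mul] at this
    exact left_eq_add.1 this
  have hεinv : ∀ x, ε x⁻¹ = -ε x := by
    intro x
    have := hadd x⁻¹ x
    rw [inv_mul_cancel, hε1] at this
    exact (neg_eq_of_add_eq_zero_left this.symm).symm
  have hεpow : ∀ (x : ↥P) (k : ℕ), ε (x ^ k) = (k : ZMod p) • ε x := by
    intro x k
    induction k with
    | zero => rw [pow_zero, hε1, Nat.cast_zero, zero_smul]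
    | succ k ih => rw [pow_succ, hadd, ih, Nat.cast_succ, add_smul, one_smul]
  have hεpw : ∀ (x : ↥P) (a : ZMod p), ε (x ^ a.val) = a • ε x := by
    intro x a
    rw [hεpow, ZMod.natCast_val, ZMod.cast_id]
  have hεeq : ∀ x y : ↥P, ε x = ε y → ∃ j : ZMod p, (x : G) = y * pw z j := by
    intro x y h
    have h1 : ε (y⁻¹ * x) = 0 := by rw [hadd, hεinv, h, neg_add_cancel]
    obtain ⟨j, hj⟩ := (hker _).1 h1
    refine ⟨j, ?_⟩
    rw [← hj]
    change (x : G) = y * ((y : G)⁻¹ * x)
    group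
  let f0 : ↥(normalizer ((P : Subgroup G) : Set G)) →* PGL(Fin 2, ZMod p) := (Matrix.ProjGenLinGroup.mk).comp ρ
  let pt : ↥P → ℙ (ZMod p) (Fin 2 → ZMod p) := fun v =>
    if h : ε v ≠ 0 then Projectivization.mk (ZMod p) (ε v) h else e0 (ZMod p)
  have hpt : ∀ v : ↥P, (∀ j : ZMod p, (v : G) ≠ pw z j) → ∃ h : ε v ≠ 0, pt v = Projectivization.mk (ZMod p) (ε v) h := by
    intro v hv
    have h : ε v ≠ 0 := by
      intro h
      obtain ⟨j, hj⟩ := (hker v).1 h
      exact hv j hj
    exact ⟨h, dif_pos h⟩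
  refine ⟨f0, pt, ?_, ?_, ?_, ?_⟩
  · -- order prime to `p`
    have hle : (P : Subgroup G).subgroupOf (normalizer ((P : Subgroup G) : Set G)) ≤ f0.ker := by
      intro n hn
      rw [mem_subgroupOf] at hn
      have h1 : ρ n = 1 := by
        apply Units.ext
        apply Matrix.ext_of_mulVec_single
        intro i
        obtain ⟨x, hx⟩ := hsurj (Pi.single i 1)
        rw [← hx, hρ, Units.val_one, one_mulVec]
        obtain ⟨j, hj⟩ := E.com n hn x x.2
        have h2 : (P : Subgroup G).normalizerMonoidHom n x = x * ⟨pw z j, mem_of_pw E.zP j⟩ := Subtype.ext hj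
        rw [h2, hadd, (hker ⟨pw z j, mem_of_pw E.zP j⟩).2 ⟨j, rfl⟩, add_zero]
      rw [MonoidHom.mem_ker]
      change Matrix.ProjGenLinGroup.mk (ρ n) = 1
      rw [h1, map_one]
    intro hdvd
    have h2 : Nat.card f0.range = f0.ker.index := (Subgroup.index_ker f0).symm
    rw [h2] at hdvd
    have h3 := hdvd.trans (Subgroup.index_dvd_of_le hle)
    have h4 : ((P : Subgroup G).subgroupOf (normalizer ((P : Subgroup G) : Set G))).index ∣ (P : Subgroup G).index :=
      Subgroup.relIndex_dvd_index_of_le le_normalizer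
    exact P.not_dvd_index (h3.trans h4)
  · intro v n hv hact
    obtain ⟨hv0, hptv⟩ := hpt v hv
    constructor
    · rw [hptv]
      change (Matrix.ProjGenLinGroup.mk (ρ n) : PGL(Fin 2, ZMod p)) • _ = _
      rw [mk_smul_eq, smul_mk_GL, Projectivization.mk_eq_mk_iff']
      refine ⟨l, ?_⟩
      rw [hρ, ← hεpw]
      congr 1
      apply Subtype.ext
      have := hact.1
      rw [pw_zero, mul_one] at this
      exact this.symm
    · apply orderOf_dvd_of_pow_eq_one
      set k := orderOf (f0 n) with hk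
      have h1 : f0 (n ^ k) = 1 := by rw [map_pow, hk, pow_orderOf_eq_one]
      have h2 : ρ (n ^ k) ∈ Subgroup.center (GL (Fin 2) (ZMod p)) := by
        have : Matrix.ProjGenLinGroup.mk (ρ (n ^ k)) = 1 := h1
        rwa [Matrix.ProjGenLinGroup.mk_eq_one] at this
      obtain ⟨c, hc⟩ := Matrix.GeneralLinearGroup.mem_center_iff_val_mem_range_scalar.1 h2
      have h3 : ∀ x : ↥P, ∃ j : ZMod p, (n : G) ^ k * x * ((n : G) ^ k)⁻¹ = pw (x : G) c * pw z j := by
        intro x
        have h4 := hρ (n ^ k) x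
        rw [← hc, Matrix.scalar_apply, ← Matrix.smul_one_eq_diagonal, smul_mulVec, one_mulVec, ← hεpw] at h4
        obtain ⟨j, hj⟩ := hεeq _ _ h4.symm
        exact ⟨j, hj⟩
      have hvP : (v : G) ∈ P := v.2
      have hvp := E.exp v hvP
      have hvz : Commute (v : G) z := E.cen v hvP
      have h5 := Act.pow hvp E.zp hvz hact k
      have h6 : l ^ k = c := by
        obtain ⟨j, hj⟩ := h3 v
        have h7 := h5.1
        rw [pw_zero, mul_one] at h7
        rw [h7] at hj
        by_contra hne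
        have hd : l ^ k - c ≠ 0 := sub_ne_zero.2 hne
        have h8 : pw (v : G) (l ^ k - c) = pw z j := by
          have h9 : pw (v : G) c * pw (v : G) (l ^ k - c) = pw (v : G) c * pw z j := by
            rw [← hj, ← pw_add hvp]
            congr 1
            ring
          exact mul_left_cancel h9
        apply hv (j * (l ^ k - c)⁻¹)
        rw [pw_mul E.zp, ← h8, ← pw_mul hvp, mul_inv_cancel₀ hd, pw_one]
      obtain ⟨w, hw, t, ht, hwt⟩ := E.noncentral hvP hv
      obtain ⟨j', hj'⟩ := h3 ⟨w, hw⟩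
      have h10 : (n : G) ^ k * (w * v * w⁻¹) * ((n : G) ^ k)⁻¹ = pw (v : G) c * pw z (c * t * c) := by
        have e1 : (n : G) ^ k * (w * v * w⁻¹) * ((n : G) ^ k)⁻¹ =
            ((n : G) ^ k * w * ((n : G) ^ k)⁻¹) * ((n : G) ^ k * v * ((n : G) ^ k)⁻¹) * ((n : G) ^ k * w * ((n : G) ^ k)⁻¹)⁻¹ := by
          group
        have h7 := h5.1
        rw [pw_zero, mul_one, h6] at h7
        have hj'' : (n : G) ^ k * w * ((n : G) ^ k)⁻¹ = pw w c * pw z j' := hj'
        rw [e1, hj'', h7]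
        have e2 : pw w c * pw z j' * pw (v : G) c * (pw w c * pw z j')⁻¹ =
            pw w c * (pw z j' * pw (v : G) c * (pw z j')⁻¹) * (pw w c)⁻¹ := by group
        have e3 : pw z j' * pw (v : G) c * (pw z j')⁻¹ = pw (v : G) c := by
          rw [mul_inv_eq_iff_eq_mul]
          exact commute_pw hvz.symm j' c
        rw [e2, e3, E.conj_pw_pw hvP hw hwt]
      have h11 : (n : G) ^ k * (w * v * w⁻¹) * ((n : G) ^ k)⁻¹ = pw (v : G) c * pw z (l⁻¹ ^ k * t) := by
        rw [hwt]
        have e1 : (n : G) ^ k * (v * pw z t) * ((n : G) ^ k)⁻¹ =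
            ((n : G) ^ k * v * ((n : G) ^ k)⁻¹) * ((n : G) ^ k * pw z t * ((n : G) ^ k)⁻¹) := by group
        have h7 := h5.1
        have h8 := h5.2
        rw [pw_zero, mul_one, h6] at h7
        rw [pw_zero, one_mul] at h8
        rw [e1, h7, conj_pw, h8, ← pw_mul E.zp]
      have h12 : c * t * c = l⁻¹ ^ k * t := by
        apply pw_inj E.z1 E.zp
        apply mul_left_cancel (a := pw (v : G) c)
        rw [← h10, h11]
      have h13 : c * c = l⁻¹ ^ k := by
        apply mul_right_cancel₀ ht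
        rw [← h12]; ring
      have hcc : c * c * c = 1 := by
        rw [h13, ← h6, ← mul_pow, inv_mul_cancel₀ hl, one_pow]
      rw [← pow_mul, mul_comm, pow_mul, h6, ← hcc]
      ring
  · intro v v' hv hv' h
    obtain ⟨hv0, hptv⟩ := hpt v hv
    obtain ⟨hv0', hptv'⟩ := hpt v' hv'
    rw [hptv, hptv', Projectivization.mk_eq_mk_iff'] at h
    obtain ⟨a, ha⟩ := h
    rw [← hεpw] at ha
    obtain ⟨j, hj⟩ := hεeq _ _ ha.symm
    exact ⟨a, j, hj⟩
  · intro x
    induction x using Projectivization.ind with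
    | _ w hw =>
      obtain ⟨v, rfl⟩ := hsurj w
      have hv : ∀ j : ZMod p, (v : G) ≠ pw z j := fun j hj => hw ((hker v).2 ⟨j, hj⟩)
      exact ⟨v, hv, dif_pos hw⟩

end Cfsg.Agent.Lib.ExtraTri
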