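import Mathlib
import Cfsg.Agent.Lib.ExtraTriE

set_option autoImplicit false
set_option linter.unusedSectionVars false

namespace Cfsg.Agent.Lib.ExtraTri

open Subgroup Matrix Cfsg.Agent.Lib.ClProjLine
open scoped Pointwise LinearAlgebra.Projectivization MatrixGroups

variable {p : ℕ} [hp : Fact p.Prime] {G : Type*} [Group G] [Finite G] {P : Sylow p G} {z : G}

/-- `⟨v, z⟩` is radical: its automizer contains a transvection moving `z` -/
def Rad (v z : G) (p : ℕ) : Prop := ∃ (g : G) (t : ZMod p), t ≠ 0 ∧ Act v z g 1 0 t 1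

theorem Ext.exists_n (E : Ext P z) {v : G} (hv : v ∈ P) (hvz : ∀ j : ZMod p, v ≠ pw z j) (hr : Rad v z p)
    {l : ZMod p} (hl : l ≠ 0) : ∃ n ∈ normalizer ((P : Subgroup G) : Set G), Act v z n l 0 0 l⁻¹ := by
  obtain ⟨w, hw, t, ht, hwt⟩ := E.noncentral hv hvz
  obtain ⟨g, t', ht', hg⟩ := hr
  obtain ⟨s, hs⟩ := exists_diag (E.exp v hv) E.zp (E.cen v hv) ht ht' (E.act_of hw hwt) hg (mul_inv_cancel₀ hl)
  exact E.to_normalizer hv hvz hl (inv_ne_zero hl) hs

theorem exists_l : ∃ l : ZMod p, l ≠ 0 ∧ orderOf (l ^ 3) = (p - 1) / Nat.gcd (p - 1) 3 := by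
  obtain ⟨u, hu⟩ := IsCyclic.exists_ofOrder_eq_natCard (α := (ZMod p)ˣ)
  rw [Nat.card_eq_fintype_card, ZMod.card_units] at hu
  refine ⟨u, u.ne_zero, ?_⟩
  rw [← Units.val_pow_eq_pow_val, orderOf_units, orderOf_pow, hu]

theorem six_le (h : 17 ≤ p ∨ p = 11) : 6 ≤ (p - 1) / Nat.gcd (p - 1) 3 := by
  rcases h with h | rfl
  · have h3 : Nat.gcd (p - 1) 3 ∣ 3 := Nat.gcd_dvd_right _ _
    rcases (Nat.dvd_prime Nat.prime_three).1 h3 with h1 | h1
    · rw [h1]; omega
    · rw [h1]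
      -- `3 ∣ p - 1` so `p ≥ 19`
      have h4 : 3 ∣ p - 1 := by rw [← h1]; exact Nat.gcd_dvd_left _ _
      omega
  · decide

theorem exact_order {H : Type*} [Group H] [Finite H] {h : H} {m : ℕ} (hm : m ∣ orderOf h) :
    ∃ k : ℕ, orderOf (h ^ k) = m := by
  have hpos := orderOf_pos h
  obtain ⟨d, hd⟩ := hm
  have hd0 : d ≠ 0 := by rintro rfl; omega
  refine ⟨d, ?_⟩
  rw [orderOf_pow_of_dvd hd0 ⟨m, by rw [hd, mul_comm]⟩, hd, Nat.mul_div_cancel _ (Nat.pos_of_ne_zero hd0)]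

/-- Common core: a finset of points coming from radical subgroups. -/
theorem Ext.core (E : Ext P z) (hcen : Nat.card (center ↥P) = p) :
    ∃ (f0 : ↥(normalizer ((P : Subgroup G) : Set G)) →* PGL(Fin 2, ZMod p))
      (pt : ↥P → ℙ (ZMod p) (Fin 2 → ZMod p)),
      ¬ p ∣ Nat.card f0.range ∧
      (∀ (v : ↥P), (∀ j : ZMod p, (v : G) ≠ pw z j) → Rad (v : G) z p →
        ∃ h : f0.range, orderOf h = (p - 1) / Nat.gcd (p - 1) 3 ∧ f0.range.subtype h • pt v = pt v) ∧
      (∀ v v' : ↥P, (∀ j : ZMod p, (v : G) ≠ pw z j) → (∀ j : ZMod p, (v' : G) ≠ pw z j) → pt v = pt v' →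
        ∃ a j : ZMod p, (v : G) = pw (v' : G) a * pw z j) ∧
      (∀ x, ∃ v : ↥P, (∀ j : ZMod p, (v : G) ≠ pw z j) ∧ pt v = x) := by
  obtain ⟨l, hl, hlo⟩ := exists_l (p := p)
  obtain ⟨f0, pt, h1, h2, h3, h4⟩ := E.key hcen hl
  refine ⟨f0, pt, h1, ?_, h3, h4⟩
  intro v hv hr
  obtain ⟨n, hn, hact⟩ := E.exists_n v.2 hv hr hl
  obtain ⟨h5, h6⟩ := h2 v ⟨n, hn⟩ hv hact
  rw [hlo] at h6
  have hfin : Finite f0.range := Finite.of_surjective f0.rangeRestrict f0.rangeRestrict_surjective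
  have h6' : (p - 1) / Nat.gcd (p - 1) 3 ∣ orderOf (f0.rangeRestrict ⟨n, hn⟩) := by
    rw [← Subgroup.orderOf_coe]; exact h6
  obtain ⟨k, hk⟩ := exact_order h6'
  refine ⟨(f0.rangeRestrict ⟨n, hn⟩) ^ k, hk, ?_⟩
  have h7 : f0 ⟨n, hn⟩ ∈ MulAction.stabilizer (PGL(Fin 2, ZMod p)) (pt v) := h5
  exact pow_mem h7 k

theorem Ext.three (E : Ext P z) (hcen : Nat.card (center ↥P) = p) (v : Fin 3 → ↥P)
    (hv : ∀ i, ∀ j : ZMod p, (v i : G) ≠ pw z j) (hr : ∀ i, Rad (v i : G) z p)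
    (hd : ∀ i j, i ≠ j → ∀ a b : ZMod p, (v i : G) ≠ pw (v j : G) a * pw z b) : p ≤ 13 := by
  classical
  by_contra hlt
  have h17 : 17 ≤ p := by
    by_contra h17
    have hpp := hp.out
    interval_cases p <;> revert hpp <;> decide
  obtain ⟨f0, pt, h1, h2, h3, h4⟩ := E.core hcen
  have hfin0 : Finite f0.range := Finite.of_surjective f0.rangeRestrict f0.rangeRestrict_surjective
  have hinj : Function.Injective (fun i => pt (v i)) := by
    intro i j hij
    by_contra hne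
    obtain ⟨a, b, hab⟩ := h3 _ _ (hv i) (hv j) hij
    exact hd i j hne a b hab
  have h5 := card_le_two p f0.range.subtype f0.range.subtype_injective h1 (six_le (Or.inl h17))
    (Finset.univ.image (fun i => pt (v i))) ?_
  · rw [Finset.card_image_of_injective _ hinj, Finset.card_univ, Fintype.card_fin] at h5
    omega
  · intro x hx
    obtain ⟨i, -, rfl⟩ := Finset.mem_image.1 hx
    exact h2 _ (hv i) (hr i)

theorem Ext.all (E : Ext P z) (hcen : Nat.card (center ↥P) = p)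
    (hr : ∀ v ∈ P, (∀ j : ZMod p, v ≠ pw z j) → Rad v z p) : p ≤ 7 := by
  classical
  by_contra hlt
  obtain ⟨f0, pt, h1, h2, h3, h4⟩ := E.core hcen
  have hfin0 : Finite f0.range := Finite.of_surjective f0.rangeRestrict f0.rangeRestrict_surjective
  have hfin : Finite (ℙ (ZMod p) (Fin 2 → ZMod p)) := inferInstance
  have := Fintype.ofFinite (ℙ (ZMod p) (Fin 2 → ZMod p))
  have hcard : (Finset.univ : Finset (ℙ (ZMod p) (Fin 2 → ZMod p))).card = p + 1 := by
    rw [Finset.card_univ, ← Nat.card_eq_fintype_card, Cfsg.Agent.Lib.MobCount.proj_card, ZMod.card]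
  have hS : ∀ x ∈ (Finset.univ : Finset (ℙ (ZMod p) (Fin 2 → ZMod p))),
      ∃ h : f0.range, orderOf h = (p - 1) / Nat.gcd (p - 1) 3 ∧ f0.range.subtype h • x = x := by
    intro x _
    obtain ⟨v, hv, rfl⟩ := h4 x
    exact h2 v hv (hr v v.2 hv)
  by_cases h13 : p = 13
  · have h5 := card_le_twelve p f0.range.subtype f0.range.subtype_injective h1 Finset.univ ?_
    · rw [hcard] at h5; omega
    · intro x hx
      obtain ⟨h, hh, hx⟩ := hS x hx
      refine ⟨h, ?_, hx⟩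
      rw [hh, h13]
      decide
  · have h17 : 17 ≤ p ∨ p = 11 := by
      by_contra h17
      push Not at h17
      have hpp := hp.out
      obtain ⟨h17, h11⟩ := h17
      interval_cases p <;> first | omega | (revert hpp; decide)
    have h5 := card_le_two p f0.range.subtype f0.range.subtype_injective h1 (six_le h17) Finset.univ hS
    rw [hcard] at h5
    omega

end Cfsg.Agent.Lib.ExtraTri
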