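import Mathlib
import Cfsg.Agent.Lib.ExtraTriF
import Cfsg.Prelude.Def_Transfer

set_option autoImplicit false
set_option linter.unusedSectionVars false

namespace Cfsg.Agent.Lib.ExtraTri

open Subgroup
open scoped Pointwise commutatorElement

variable {p : ℕ} [hp : Fact p.Prime] {G : Type*} [Group G] [Finite G] {P : Sylow p G} {z : G}

theorem Ext.of (hE : Cfsg.IsExtraspecial p ↥P) (hcard : Nat.card P = p ^ 3) (hexp : Monoid.exponent ↥P = p) :
    ∃ z, Ext P z := by
  obtain ⟨⟨_, _, hcomm⟩, hcen⟩ := hE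
  have hnt : Nontrivial (center ↥P) := by
    rw [← Finite.one_lt_card_iff_nontrivial, hcen]; exact hp.out.one_lt
  obtain ⟨z0, hz0⟩ := exists_ne (1 : center ↥P)
  have hz1 : ((z0 : ↥P) : G) ≠ 1 := by
    intro h
    exact hz0 (Subtype.ext (Subtype.ext h))
  have hexpP : ∀ x ∈ P, x ^ p = 1 := by
    intro x hx
    have := Monoid.pow_exponent_eq_one (⟨x, hx⟩ : ↥P)
    rw [hexp] at this
    exact congrArg Subtype.val this
  have hzp : ((z0 : ↥P) : G) ^ p = 1 := hexpP _ (z0 : ↥P).2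
  have hall : ∀ c : ↥P, c ∈ center ↥P → ∃ j : ZMod p, (c : G) = pw ((z0 : ↥P) : G) j := by
    intro c hc
    obtain ⟨n, hn⟩ := mem_powers_of_prime_card (p := p) hcen hz0 (g' := ⟨c, hc⟩)
    refine ⟨n, ?_⟩
    rw [pw_natCast hzp]
    have h1 : (z0 : center ↥P) ^ n = ⟨c, hc⟩ := hn
    have h2 := congrArg (fun w : center ↥P => ((w : ↥P) : G)) h1
    simpa using h2.symm
  refine ⟨((z0 : ↥P) : G), hexpP, (z0 : ↥P).2, hz1, ?_, ?_, ?_, hcard⟩
  · intro x hx
    have := mem_center_iff.1 z0.2 ⟨x, hx⟩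
    exact congrArg Subtype.val this
  · intro x hx y hy
    have h1 : ⁅(⟨x, hx⟩ : ↥P), (⟨y, hy⟩ : ↥P)⁆ ∈ center ↥P := by
      rw [← hcomm]
      exact commutator_mem_commutator (mem_top _) (mem_top _)
    obtain ⟨j, hj⟩ := hall _ h1
    refine ⟨j, ?_⟩
    have h2 : x * y * x⁻¹ * y⁻¹ = pw ((z0 : ↥P) : G) j := hj
    have h3 : y * pw ((z0 : ↥P) : G) j = pw ((z0 : ↥P) : G) j * y := by
      have h4 := mem_center_iff.1 h1 ⟨y, hy⟩
      have h5 := congrArg Subtype.val h4
      change y * ((⁅(⟨x, hx⟩ : ↥P), (⟨y, hy⟩ : ↥P)⁆ : ↥P) : G) = ((⁅(⟨x, hx⟩ : ↥P), (⟨y, hy⟩ : ↥P)⁆ : ↥P) : G) * y at h5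
      rw [hj] at h5
      exact h5
    rw [h3, ← h2]
    group
  · intro x hx h
    apply hall ⟨x, hx⟩
    rw [mem_center_iff]
    intro y
    exact Subtype.ext (h y y.2).symm

/-! ### the subgroups of order `p²` -/

theorem Ext.card_center (E : Ext P z) : Nat.card {x : G // ∃ j : ZMod p, x = pw z j} = p := by
  have hb : Function.Bijective (fun j : ZMod p => (⟨pw z j, j, rfl⟩ : {x : G // ∃ j : ZMod p, x = pw z j})) := by
    constructor
    · intro a b h
      exact pw_inj E.z1 E.zp (congrArg Subtype.val h)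
    · rintro ⟨x, j, rfl⟩
      exact ⟨j, rfl⟩
  rw [← Nat.card_congr (Equiv.ofBijective _ hb), Nat.card_zmod]

theorem Ext.exists_v (E : Ext P z) {A : Subgroup G} (hA : Nat.card A = p ^ 2) :
    ∃ v ∈ A, ∀ j : ZMod p, v ≠ pw z j := by
  by_contra hcon
  push Not at hcon
  have h1 : Nat.card A ≤ Nat.card {x : G // ∃ j : ZMod p, x = pw z j} :=
    Nat.card_le_card_of_injective (fun a : A => ⟨a, hcon a a.2⟩) (by
      intro a b h
      exact Subtype.ext (congrArg (fun w : {x : G // ∃ j : ZMod p, x = pw z j} => (w : G)) h))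
  rw [hA, E.card_center] at h1
  have := hp.out.one_lt
  nlinarith

theorem Ext.z_mem (E : Ext P z) {A : Subgroup G} (hAP : A ≤ P) (hA : Nat.card A = p ^ 2) {v : G} (hv : v ∈ A)
    (hvz : ∀ j : ZMod p, v ≠ pw z j) : z ∈ A := by
  by_contra hz
  have hcomm0 : IsMulCommutative A := IsPGroup.isMulCommutative_of_card_eq_prime_sq (p := p) hA
  have hcomm : ∀ a b : A, a * b = b * a := hcomm0.is_comm.comm
  set C : Subgroup G := (P : Subgroup G) ⊓ centralizer ({v} : Set G) with hC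
  have hAC : A ≤ C := by
    intro a ha
    exact ⟨hAP ha, mem_centralizer_singleton_iff.2 (congrArg Subtype.val (hcomm ⟨a, ha⟩ ⟨v, hv⟩))⟩
  have hzC : z ∈ C := ⟨E.zP, mem_centralizer_singleton_iff.2 (E.cen v (hAP hv)).symm⟩
  have h1 : Nat.card A ∣ Nat.card C := Subgroup.card_dvd_of_le hAC
  have h2 : Nat.card C ∣ Nat.card P := Subgroup.card_dvd_of_le inf_le_left
  rw [E.card] at h2
  obtain ⟨j, hj, hj'⟩ := (Nat.dvd_prime_pow hp.out).1 h2
  rw [hA, hj'] at h1
  have h3 : 2 ≤ j := (Nat.pow_dvd_pow_iff_le_right hp.out.one_lt).1 h1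
  have h4 : j ≠ 2 := by
    rintro rfl
    have h5 : A = C := Subgroup.eq_of_le_of_card_ge hAC (by rw [hj', hA])
    rw [← h5] at hzC
    exact hz hzC
  have h6 : j = 3 := by omega
  have h7 : C = (P : Subgroup G) := by
    apply Subgroup.eq_of_le_of_card_ge inf_le_left
    rw [hj', h6]
    exact E.card.le
  obtain ⟨w, hw, t, ht, hwt⟩ := E.noncentral (hAP hv) hvz
  have hwC : w ∈ C := by rw [h7]; exact hw
  have h8 := mem_centralizer_singleton_iff.1 hwC.2
  rw [h8, mul_inv_cancel_right] at hwt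
  exact ht (pw_eq_one E.z1 E.zp (mul_eq_left.1 hwt.symm))

theorem Ext.coord_inj (E : Ext P z) {v : G} (hv : v ∈ P) (hvz : ∀ j : ZMod p, v ≠ pw z j) {a b a' b' : ZMod p}
    (h : pw v a * pw z b = pw v a' * pw z b') : a = a' ∧ b = b' := by
  have hvp := E.exp v hv
  have h1 : pw v (a - a') = pw z (b' - b) := by
    have h2 : pw v a = pw v a' * pw v (a - a') := by rw [← pw_add hvp]; congr 1; ring
    have h3 : pw z b' = pw z (b' - b) * pw z b := by rw [← pw_add E.zp]; congr 1; ring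
    rw [h2, h3, mul_assoc] at h
    have h4 := mul_left_cancel h
    exact mul_right_cancel h4
  have h2 : a - a' = 0 := by
    by_contra hne
    apply hvz ((b' - b) * (a - a')⁻¹)
    rw [pw_mul E.zp, ← h1, ← pw_mul hvp, mul_inv_cancel₀ hne, pw_one]
  rw [h2, pw_zero] at h1
  have h3 := pw_eq_one E.z1 E.zp h1.symm
  exact ⟨sub_eq_zero.1 h2, (sub_eq_zero.1 h3).symm⟩

/-- the isomorphism `ZMod p × ZMod p ≃ A` -/
theorem Ext.coords (E : Ext P z) {A : Subgroup G} (hAP : A ≤ P) (hA : Nat.card A = p ^ 2) {v : G} (hv : v ∈ A)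
    (hvz : ∀ j : ZMod p, v ≠ pw z j) (hz : z ∈ A) :
    ∃ e : Multiplicative (ZMod p × ZMod p) ≃* A, ∀ a b : ZMod p, (e (Multiplicative.ofAdd (a, b)) : G) = pw v a * pw z b := by
  have hvp := E.exp v (hAP hv)
  have hvc : Commute v z := E.cen v (hAP hv)
  let f : Multiplicative (ZMod p × ZMod p) →* A := MonoidHom.mk' (fun x =>
    ⟨pw v (Multiplicative.toAdd x).1 * pw z (Multiplicative.toAdd x).2, mul_mem (mem_of_pw hv _) (mem_of_pw hz _)⟩) (by
      intro x y
      apply Subtype.ext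
      change pw v ((Multiplicative.toAdd x).1 + (Multiplicative.toAdd y).1) *
        pw z ((Multiplicative.toAdd x).2 + (Multiplicative.toAdd y).2) = _
      rw [pw_add hvp, pw_add E.zp]
      change _ = pw v (Multiplicative.toAdd x).1 * pw z (Multiplicative.toAdd x).2 *
        (pw v (Multiplicative.toAdd y).1 * pw z (Multiplicative.toAdd y).2)
      have h1 : Commute (pw v (Multiplicative.toAdd y).1) (pw z (Multiplicative.toAdd x).2) := commute_pw hvc _ _
      rw [mul_assoc, ← mul_assoc (pw v (Multiplicative.toAdd y).1), h1.eq]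
      group)
  have hf : Function.Injective f := by
    intro x y h
    have h1 := congrArg Subtype.val h
    obtain ⟨h2, h3⟩ := E.coord_inj (hAP hv) hvz h1
    exact Multiplicative.toAdd.injective (Prod.ext h2 h3)
  have hb : Function.Bijective f := by
    have : Fintype (ZMod p × ZMod p) := inferInstance
    have hc : Nat.card (Multiplicative (ZMod p × ZMod p)) = Nat.card A := by
      have : Nat.card (Multiplicative (ZMod p × ZMod p)) = Nat.card (ZMod p × ZMod p) := rfl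
      rw [this, Nat.card_prod, Nat.card_zmod, hA, pow_two]
    exact (Nat.bijective_iff_injective_and_card f).2 ⟨hf, hc⟩
  exact ⟨MulEquiv.ofBijective f hb, fun a b => rfl⟩

/-- the shear automorphism -/
theorem Ext.shear (E : Ext P z) {A : Subgroup G} (hAP : A ≤ P) (hA : Nat.card A = p ^ 2) {v : G} (hv : v ∈ A)
    (hvz : ∀ j : ZMod p, v ≠ pw z j) (hz : z ∈ A) :
    ∃ φ : MulAut A, orderOf φ = p ∧ (φ ⟨v, hv⟩ : G) = v ∧ (φ ⟨z, hz⟩ : G) = v * z := by
  obtain ⟨e, he⟩ := E.coords hAP hA hv hvz hz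
  let T : (ZMod p × ZMod p) ≃+ (ZMod p × ZMod p) :=
    { toFun := fun x => (x.1 + x.2, x.2)
      invFun := fun x => (x.1 - x.2, x.2)
      left_inv := fun x => by ext <;> simp
      right_inv := fun x => by ext <;> simp
      map_add' := fun x y => by ext <;> simp; ring }
  let φ : MulAut A := (e.symm.trans (AddEquiv.toMultiplicative T)).trans e
  have hφ : ∀ a b : ZMod p, φ (e (Multiplicative.ofAdd (a, b))) = e (Multiplicative.ofAdd (a + b, b)) := by
    intro a b
    change e ((AddEquiv.toMultiplicative T) (e.symm (e (Multiplicative.ofAdd (a, b))))) = _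
    rw [e.symm_apply_apply]
    rfl
  have hφn : ∀ (n : ℕ) (a b : ZMod p), (φ ^ n) (e (Multiplicative.ofAdd (a, b))) = e (Multiplicative.ofAdd (a + (n : ZMod p) * b, b)) := by
    intro n
    induction n with
    | zero => intro a b; rw [pow_zero, MulAut.one_apply, Nat.cast_zero, zero_mul, add_zero]
    | succ n ih =>
      intro a b
      rw [pow_succ, MulAut.mul_apply, hφ, ih]
      congr 3
      push_cast
      ring
  have hve : (⟨v, hv⟩ : A) = e (Multiplicative.ofAdd (1, 0)) := Subtype.ext (by rw [he, pw_one, pw_zero, mul_one])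
  have hze : (⟨z, hz⟩ : A) = e (Multiplicative.ofAdd (0, 1)) := Subtype.ext (by rw [he, pw_one, pw_zero, one_mul])
  have h2 : (φ ⟨z, hz⟩ : G) = v * z := by
    rw [hze, hφ, he, zero_add, pw_one, pw_one]
  refine ⟨φ, ?_, ?_, h2⟩
  · apply orderOf_eq_prime
    · ext x
      obtain ⟨y, rfl⟩ := e.surjective x
      obtain ⟨⟨a, b⟩, rfl⟩ := Multiplicative.ofAdd.surjective y
      rw [hφn, CharP.cast_eq_zero, zero_mul, add_zero]
      rfl
    · intro h
      rw [h, MulAut.one_apply] at h2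
      have h3 : v = 1 := by
        have h4 : (1 : G) * z = v * z := by rw [one_mul]; exact h2
        exact (mul_right_cancel h4).symm
      exact hvz 0 (by rw [h3, pw_zero])
  · rw [hve, hφ, he, add_zero, pw_one, pw_zero, mul_one]

theorem Ext.of_SL (E : Ext P z) {A : Subgroup G} (hAP : A ≤ P) (hA : Nat.card A = p ^ 2) {v : G} (hv : v ∈ A)
    (hvz : ∀ j : ZMod p, v ≠ pw z j)
    (hSL : ∀ φ : MulAut A, orderOf φ = p → ∃ g : G, ∀ a : A, (φ a : G) = g * (a : G) * g⁻¹) : Rad v z p := by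
  have hz := E.z_mem hAP hA hv hvz
  obtain ⟨φ, h1, h2, h3⟩ := E.shear hAP hA hv hvz hz
  obtain ⟨g, hg⟩ := hSL φ h1
  refine ⟨g, 1, one_ne_zero, ?_, ?_⟩
  · rw [pw_one, pw_zero, mul_one]
    rw [hg] at h2
    exact h2
  · rw [pw_one, pw_one]
    rw [hg] at h3
    exact h3

theorem Ext.of_conj (E : Ext P z) {v : G} (hv : v ∈ P) (hvz : ∀ j : ZMod p, v ≠ pw z j)
    {g : G} (hg : g * v * g⁻¹ = z) : Rad v z p := by
  set C := centralizer ({z} : Set G) with hC
  have hPC : (P : Subgroup G) ≤ C := by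
    intro x hx
    rw [hC, mem_centralizer_singleton_iff]
    exact E.cen x hx
  have hy0 : g * z * g⁻¹ ∈ C := by
    rw [hC, mem_centralizer_singleton_iff]
    nth_rewrite 2 [← hg]
    nth_rewrite 2 [← hg]
    have := E.cen v hv
    calc g * z * g⁻¹ * (g * v * g⁻¹) = g * (z * v) * g⁻¹ := by group
      _ = g * (v * z) * g⁻¹ := by rw [this]
      _ = g * v * g⁻¹ * (g * z * g⁻¹) := by group
  have hQ : IsPGroup p (zpowers (⟨g * z * g⁻¹, hy0⟩ : C)) := by
    apply IsPGroup.of_card (n := 1)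
    rw [Nat.card_zpowers, pow_one, Subgroup.orderOf_mk, ← MulAut.conj_apply, MulEquiv.orderOf_eq]
    exact orderOf_eq_prime E.zp E.z1
  obtain ⟨S, hS⟩ := hQ.exists_le_sylow
  obtain ⟨c, hc⟩ := MulAction.exists_smul_eq C S (P.subtype hPC)
  have hcy : (c : G) * (g * z * g⁻¹) * (c : G)⁻¹ ∈ P := by
    have h1 : c * ⟨g * z * g⁻¹, hy0⟩ * c⁻¹ ∈ ((c • S : Sylow p C) : Subgroup C) := by
      rw [Sylow.coe_subgroup_smul]
      exact Subgroup.smul_mem_pointwise_smul _ (MulAut.conj c) _ (hS (mem_zpowers _))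
    rw [hc, Sylow.coe_subtype, mem_subgroupOf] at h1
    exact h1
  have hcz : (c : G) * z = z * c := mem_centralizer_singleton_iff.1 c.2
  set h := (c : G) * g with hh
  have h1 : h * v * h⁻¹ = z := by
    have : h * v * h⁻¹ = c * (g * v * g⁻¹) * (c : G)⁻¹ := by rw [hh]; group
    rw [this, hg, hcz, mul_inv_cancel_right]
  have h2 : h * z * h⁻¹ ∈ P := by
    have : h * z * h⁻¹ = c * (g * z * g⁻¹) * (c : G)⁻¹ := by rw [hh]; group
    rw [this]; exact hcy
  set y := h * z * h⁻¹ with hy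
  have hvp := E.exp v hv
  have hyz : ∀ j : ZMod p, y ≠ pw z j := by
    intro j hj
    have h3 : z = pw v j := by
      have h4 : h * z * h⁻¹ = h * pw v j * h⁻¹ := by rw [conj_pw, h1, ← hj]
      exact mul_left_cancel (mul_right_cancel h4)
    by_cases hj0 : j = 0
    · rw [hj0, pw_zero] at h3
      exact E.z1 h3
    · apply hvz j⁻¹
      rw [h3, ← pw_mul hvp, mul_inv_cancel₀ hj0, pw_one]
  obtain ⟨w, hw, t, ht, hwt⟩ := E.noncentral h2 hyz
  refine ⟨h⁻¹ * w * h, t, ht, ?_, ?_⟩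
  · rw [pw_one, pw_zero, mul_one]
    have e1 : h⁻¹ * w * h * v * (h⁻¹ * w * h)⁻¹ = h⁻¹ * (w * (h * v * h⁻¹) * w⁻¹) * h := by group
    have e2 : h⁻¹ * z * h = v := by rw [← h1]; group
    rw [e1, h1, E.cen w hw, mul_inv_cancel_right, e2]
  · rw [pw_one]
    have e1 : h⁻¹ * w * h * z * (h⁻¹ * w * h)⁻¹ = h⁻¹ * (w * (h * z * h⁻¹) * w⁻¹) * h := by group
    have e2 : h⁻¹ * (y * pw z t) * h = (h⁻¹ * y * h) * (h⁻¹ * pw z t * h⁻¹⁻¹) := by group
    have e3 : h⁻¹ * z * h⁻¹⁻¹ = v := by rw [← h1]; group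
    have e4 : h⁻¹ * y * h = z := by rw [hy]; group
    rw [e1, ← hy, hwt, e2, conj_pw, e3, e4]
    have h5 : Commute z (pw v t) := by
      have := commute_pw (show Commute z v from (E.cen v hv).symm) 1 t
      rwa [pw_one] at this
    exact h5.eq

end Cfsg.Agent.Lib.ExtraTri
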