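import Cfsg.Agent.Lib.Extraspecial

/-!
# Counting solutions of `x ^ 2 = 1` in extraspecial 2-groups (helper2)
-/

set_option autoImplicit false

open Subgroup
open scoped commutatorElement

namespace Cfsg.Agent.Lib.ExtraspecialCount

open Cfsg.Agent.Lib.Extraspecial

universe u v

/-- the number of solutions of `x ^ 2 = 1` -/
noncomputable def inv (E : Type*) [Group E] : ℕ := Nat.card {x : E // x ^ 2 = 1}

theorem inv_pos (E : Type*) [Group E] [Finite E] : 0 < inv E := by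
  haveI : Nonempty {x : E // x ^ 2 = 1} := ⟨⟨1, one_pow 2⟩⟩
  exact Nat.card_pos

theorem inv_congr {E F : Type*} [Group E] [Group F] (e : E ≃* F) : inv E = inv F := by
  apply Nat.card_congr
  refine (e.toEquiv.subtypeEquiv fun x => ?_)
  show x ^ 2 = 1 ↔ (e x) ^ 2 = 1
  rw [← map_pow, EmbeddingLike.map_eq_one_iff]

section
variable {E : Type*} [Group E] {z : E}

theorem card_split (E : Type*) [Group E] [Finite E] : inv E + Nat.card {x : E // ¬ x ^ 2 = 1} = Nat.card E := by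
  classical
  rw [inv, ← Nat.card_sum]
  exact Nat.card_congr (Equiv.sumCompl _)

theorem inv_of_dihedral [Finite E] (h : XS 2 E z) {x y : E} (hxy : ⁅x, y⁆ = z) (hx : x ^ 2 = 1) (hy : y ^ 2 = 1) :
    inv E = 2 * inv (centralizer ({x, y} : Set E)) + Nat.card (centralizer ({x, y} : Set E)) := by
  classical
  have hcard := h.card_eq hxy
  set C := centralizer ({x, y} : Set E) with hC
  let r : Fin 4 → E := ![1, x, y, x * y]
  let F : (_ : Fin 4) × C → E := fun p => r p.1 * (p.2 : E)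
  have hsurj : Function.Surjective F := by
    intro e
    obtain ⟨i, j, c, hc, rfl⟩ := h.exists_eq hxy e
    have red : ∀ w : E, w ^ 2 = 1 → ∀ i : ℤ, w ^ i = 1 ∨ w ^ i = w := by
      intro w hw i
      rcases Int.even_or_odd' i with ⟨k, rfl | rfl⟩
      · left; rw [zpow_mul, zpow_ofNat, hw, one_zpow]
      · right; rw [zpow_add, zpow_mul, zpow_ofNat, hw, one_zpow, one_mul, zpow_one]
    rcases red x hx i with hi | hi <;> rcases red y hy j with hj | hj <;> rw [hi, hj]
    · exact ⟨⟨0, ⟨c, hc⟩⟩, by simp [F, r]⟩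
    · exact ⟨⟨2, ⟨c, hc⟩⟩, by simp [F, r]⟩
    · exact ⟨⟨1, ⟨c, hc⟩⟩, by simp [F, r]⟩
    · exact ⟨⟨3, ⟨c, hc⟩⟩, by simp [F, r]⟩
  have hbij : Function.Bijective F := by
    rw [Nat.bijective_iff_surjective_and_card]
    refine ⟨hsurj, ?_⟩
    rw [hcard, Nat.card_sigma]
    simp
  have hcomm : ∀ k : Fin 4, ∀ c : C, (r k * (c : E)) ^ 2 = (r k) ^ 2 * (c : E) ^ 2 := by
    intro k c
    have h1 : Commute x (c : E) := mem_centralizer_iff.mp c.2 x (by simp)
    have h2 : Commute y (c : E) := mem_centralizer_iff.mp c.2 y (by simp)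
    have h3 : Commute (r k) (c : E) := by
      fin_cases k
      · exact Commute.one_left _
      · exact h1
      · exact h2
      · exact h1.mul_left h2
    exact h3.mul_pow 2
  have hzc : ∀ c : C, z * (c : E) ^ 2 = 1 ↔ ¬ c ^ 2 = 1 := by
    intro c
    have h1 : (c : E) ^ 2 = 1 ∨ (c : E) ^ 2 = z := h.two_cases (h.pow _)
    have h2 : c ^ 2 = 1 ↔ (c : E) ^ 2 = 1 := by
      rw [← Subgroup.coe_pow, OneMemClass.coe_eq_one]
    rw [h2]
    have h3 : z * z = 1 := by rw [← pow_two]; exact h.z_sq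
    rcases h1 with h1 | h1
    · rw [h1, mul_one]
      simp only [not_true_eq_false, iff_false]
      exact h.z_ne_one
    · rw [h1, h3]
      simp only [true_iff]
      exact h.z_ne_one
  let Eq1 : {e : E // e ^ 2 = 1} ≃ {p : (_ : Fin 4) × C // (F p) ^ 2 = 1} :=
    ((Equiv.ofBijective F hbij).subtypeEquiv fun p => Iff.rfl).symm
  let Eq2 : {p : (_ : Fin 4) × C // (F p) ^ 2 = 1} ≃ (k : Fin 4) × {c : C // (r k * (c : E)) ^ 2 = 1} :=
    { toFun := fun p => ⟨p.1.1, ⟨p.1.2, p.2⟩⟩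
      invFun := fun q => ⟨⟨q.1, q.2.1⟩, q.2.2⟩
      left_inv := fun p => rfl
      right_inv := fun q => rfl }
  have hcount : ∀ k : Fin 4, (r k) ^ 2 = 1 → Nat.card {c : C // (r k * (c : E)) ^ 2 = 1} = inv C := by
    intro k hk
    apply Nat.card_congr
    refine Equiv.subtypeEquivRight fun c => ?_
    rw [hcomm, hk, one_mul, ← Subgroup.coe_pow, OneMemClass.coe_eq_one]
  rw [inv, Nat.card_congr (Eq1.trans Eq2), Nat.card_sigma, Fin.sum_univ_four,
    hcount 0 (by simp [r]), hcount 1 (by simpa [r] using hx), hcount 2 (by simpa [r] using hy)]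
  have h3 : Nat.card {c : C // (r 3 * (c : E)) ^ 2 = 1} = Nat.card {c : C // ¬ c ^ 2 = 1} := by
    apply Nat.card_congr
    refine Equiv.subtypeEquivRight fun c => ?_
    rw [hcomm]
    have : (r 3) ^ 2 = z := by
      show (x * y) ^ 2 = z
      rw [h.sq_mul, hx, hy, hxy, one_mul, one_mul]
    rw [this]
    exact hzc c
  rw [h3]
  have h4 := card_split C
  omega

theorem inv_of_not [Finite E] (h : XS 2 E z) (hx : ¬ ∃ x : E, x ∉ zpowers z ∧ x ^ 2 = 1) : inv E = 2 := by
  have h1 : inv E = Nat.card (zpowers z) := by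
    apply Nat.card_congr
    refine Equiv.subtypeEquivRight fun x => ?_
    constructor
    · intro h2
      by_contra h3
      exact hx ⟨x, h3, h2⟩
    · intro h2
      rcases h.two_cases h2 with rfl | rfl
      · exact one_pow 2
      · exact h.z_sq
  rw [h1, Nat.card_zpowers, h.ord]

theorem inv_of_comm [Finite E] (h : XS 2 E z) (hc : Nat.card E = 2) : inv E = 2 := by
  apply inv_of_not h
  rintro ⟨x, hx, -⟩
  apply hx
  have h1 : zpowers z = ⊤ := by
    rw [← Subgroup.card_eq_iff_eq_top, Nat.card_zpowers, h.ord, hc]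
  rw [h1]; exact mem_top x

end

/-- **First part of S4416** -/
theorem exists_count : ∀ (n : ℕ) (E : Type u) [Group E] [Finite E] (z : E), XS 2 E z → Nat.card E ≤ n →
    ∃ m : ℕ, Nat.card E = 2 ^ (2 * m + 1) ∧ (inv E = 2 ^ (2 * m) + 2 ^ m ∨
      (1 ≤ m ∧ inv E + 2 ^ m = 2 ^ (2 * m))) := by
  have hp : Fact (Nat.Prime 2) := ⟨Nat.prime_two⟩
  intro n
  induction n with
  | zero =>
    intro E _ _ z _ hn
    exact absurd hn (by have := Nat.card_pos (α := E); omega)
  | succ n ih =>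
    intro E _ _ z h hn
    by_cases hc : Nat.card E = 2
    · exact ⟨0, by rw [hc]; norm_num, Or.inl (by rw [inv_of_comm h hc]; norm_num)⟩
    · have c₁ : ∃ x y : E, x * y ≠ y * x := by rw [h.not_comm_iff]; exact hc
      by_cases n₁ : ∃ x : E, x ∉ zpowers z ∧ x ^ 2 = 1
      · obtain ⟨x, y, hxy, hx, hy⟩ := h.exists_dihedral n₁
        have k := h.card_eq hxy
        have hpos : 0 < Nat.card (Subgroup.centralizer ({x, y} : Set E)) := Nat.card_pos
        have k2 := inv_of_dihedral h hxy hx hy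
        obtain ⟨m, hm, hm2⟩ := ih _ _ (h.cent hxy) (by omega)
        have e1 : 2 ^ (2 * (m + 1)) = 4 * 2 ^ (2 * m) := by rw [mul_add, pow_add]; norm_num; ring
        have e2 : 2 ^ (2 * m + 1) = 2 * 2 ^ (2 * m) := by rw [pow_succ]; ring
        have e3 : 2 ^ (m + 1) = 2 * 2 ^ m := by rw [pow_succ]; ring
        refine ⟨m + 1, ?_, ?_⟩
        · rw [k, hm, ← pow_add]; congr 1; ring
        · rw [hm, e2] at k2
          rw [e1, e3]
          rcases hm2 with hm2 | ⟨hm1, hm2⟩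
          · left; omega
          · right; exact ⟨by omega, by omega⟩
      · refine ⟨1, by rw [h.card_eight_of_not n₁ c₁]; norm_num, Or.inr ⟨le_rfl, by rw [inv_of_not h n₁]; norm_num⟩⟩

/-- **Second part of S4416** -/
theorem iso_of_count : ∀ (n : ℕ) (E₁ : Type u) (E₂ : Type v) [Group E₁] [Group E₂]
    [Finite E₁] [Finite E₂] (z₁ : E₁) (z₂ : E₂), XS 2 E₁ z₁ → XS 2 E₂ z₂ →
    Nat.card E₁ = Nat.card E₂ → inv E₁ = inv E₂ → Nat.card E₁ ≤ n → ∃ e : E₁ ≃* E₂, e z₁ = z₂ := by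
  have hp : Fact (Nat.Prime 2) := ⟨Nat.prime_two⟩
  intro n
  induction n with
  | zero =>
    intro E₁ E₂ _ _ _ _ z₁ z₂ _ _ _ _ hn
    exact absurd hn (by have := Nat.card_pos (α := E₁); omega)
  | succ n ih =>
    intro E₁ E₂ _ _ _ _ z₁ z₂ h₁ h₂ h12 hinv hn
    by_cases hc : Nat.card E₁ = 2
    · have c₁ : ¬ ∃ x y : E₁, x * y ≠ y * x := by rw [h₁.not_comm_iff]; omega
      have c₂ : ¬ ∃ x y : E₂, x * y ≠ y * x := by rw [h₂.not_comm_iff]; omega
      push Not at c₁ c₂
      exact iso_of_comm h₁ h₂ c₁ c₂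
    · have c₁ : ∃ x y : E₁, x * y ≠ y * x := by rw [h₁.not_comm_iff]; exact hc
      have c₂ : ∃ x y : E₂, x * y ≠ y * x := by rw [h₂.not_comm_iff]; omega
      by_cases n₁ : ∃ x : E₁, x ∉ zpowers z₁ ∧ x ^ 2 = 1
      · by_cases n₂ : ∃ x : E₂, x ∉ zpowers z₂ ∧ x ^ 2 = 1
        · obtain ⟨x₁, y₁, hxy₁, hx₁, hy₁⟩ := h₁.exists_dihedral n₁
          obtain ⟨x₂, y₂, hxy₂, hx₂, hy₂⟩ := h₂.exists_dihedral n₂
          have k₁ := h₁.card_eq hxy₁
          have k₂ := h₂.card_eq hxy₂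
          have l₁ := inv_of_dihedral h₁ hxy₁ hx₁ hy₁
          have l₂ := inv_of_dihedral h₂ hxy₂ hx₂ hy₂
          have hpos : 0 < Nat.card (Subgroup.centralizer ({x₁, y₁} : Set E₁)) := Nat.card_pos
          obtain ⟨ψ, hψ⟩ := ih _ _ _ _ (h₁.cent hxy₁) (h₂.cent hxy₂) (by omega) (by omega) (by omega)
          exact glue (a := 0) (b := 0) h₁ h₂ hxy₁ hxy₂ (by rw [hx₁, zpow_zero]) (by rw [hx₂, zpow_zero])
            (by rw [hy₁, zpow_zero]) (by rw [hy₂, zpow_zero]) ψ (congrArg Subtype.val hψ)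
        · exfalso
          obtain ⟨x₁, y₁, hxy₁, hx₁, hy₁⟩ := h₁.exists_dihedral n₁
          have l₁ := inv_of_dihedral h₁ hxy₁ hx₁ hy₁
          have k₁ := h₁.card_eq hxy₁
          have e2 := h₂.card_eight_of_not n₂ c₂
          have e3 := inv_of_not h₂ n₂
          have := inv_pos (Subgroup.centralizer ({x₁, y₁} : Set E₁))
          omega
      · by_cases n₂ : ∃ x : E₂, x ∉ zpowers z₂ ∧ x ^ 2 = 1
        · exfalso
          obtain ⟨x₂, y₂, hxy₂, hx₂, hy₂⟩ := h₂.exists_dihedral n₂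
          have l₂ := inv_of_dihedral h₂ hxy₂ hx₂ hy₂
          have k₂ := h₂.card_eq hxy₂
          have e2 := h₁.card_eight_of_not n₁ c₁
          have e3 := inv_of_not h₁ n₁
          have := inv_pos (Subgroup.centralizer ({x₂, y₂} : Set E₂))
          omega
        · exact iso_of_not h₁ h₂ n₁ n₂ c₁ c₂

end Cfsg.Agent.Lib.ExtraspecialCount
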