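import Cfsg.Agent.Lib.FRb

/-! Piece AVE of helper31's plan for S2207 (helper95) -/

set_option autoImplicit false
set_option linter.all false

namespace Cfsg.Agent.Lib.FR

open MulAction Subgroup

variable {G X : Type*} [Group G] [Finite G] [Finite X] [MulAction G X] {D : X → X → Prop} {K : X → Subgroup G}
  {k h l lam mu : ℕ}

/-- `Za` as a subgroup -/
def aveZ (K : X → Subgroup G) (a : X) : Subgroup G where
  carrier := Za K a
  mul_mem' := by
    rintro x y ⟨hx1, hx2, hx3⟩ ⟨hy1, hy2, hy3⟩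
    refine ⟨(K a).mul_mem hx1 hy1, ?_, ?_⟩
    · rw [(show Commute x y from hx3 y hy1).mul_pow, hx2, hy2, one_mul]
    · intro w hw
      rw [mul_assoc, hy3 w hw, ← mul_assoc, hx3 w hw, mul_assoc]
  one_mem' := ⟨(K a).one_mem, one_pow _, fun w _ => by rw [one_mul, mul_one]⟩
  inv_mem' := by
    rintro x ⟨hx1, hx2, hx3⟩
    refine ⟨(K a).inv_mem hx1, ?_, ?_⟩
    · rw [inv_pow, hx2, inv_one]
    · intro w hw
      exact ((show Commute x w from hx3 w hw).inv_left).eq

theorem ave_index (S : S2 D K) (R : Rk G X D K k h l lam mu)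
    (hz : ∀ a c, a ≠ c → ¬ D a c → ∃ u ∈ Za K a, u ∉ K c) {a c : X} (hac : a ≠ c) (hN : ¬ D a c) :
    ((K c).subgroupOf (aveZ K a)).index = 2 := by
  obtain ⟨u, hu, huc⟩ := hz a c hac hN
  have hu2 : u ^ 2 = 1 := hu.2.1
  have huinv : u⁻¹ = u := by
    rw [inv_eq_iff_mul_eq_one, ← sq]; exact hu2
  have hnorm : ∀ g ∈ Za K a, g ∈ normalizer ((K a ⊓ K c : Subgroup G) : Set G) := by
    intro g hg
    rw [mem_normalizer_iff]
    intro x
    constructor
    · intro hx
      have h1 : g * x * g⁻¹ = x := by rw [hg.2.2 x hx.1, mul_assoc, mul_inv_cancel, mul_one]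
      rwa [h1]
    · intro hx
      have hxa : x ∈ K a := by
        have h2 := (K a).mul_mem ((K a).mul_mem ((K a).inv_mem hg.1) hx.1) hg.1
        convert h2 using 1
        group
      have h1 : g * x * g⁻¹ = x := by rw [hg.2.2 x hxa, mul_assoc, mul_inv_cancel, mul_one]
      rwa [h1] at hx
  rw [Subgroup.index_eq_two_iff]
  refine ⟨⟨u, hu⟩, ?_⟩
  rintro ⟨b, hb⟩
  rw [mem_subgroupOf, mem_subgroupOf]
  show Xor (b * u ∈ K c) (b ∈ K c)
  by_cases hbc : b ∈ K c
  · right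
    refine ⟨hbc, fun h1 => huc ?_⟩
    have h2 := (K c).mul_mem ((K c).inv_mem hbc) h1
    rwa [inv_mul_cancel_left] at h2
  · left
    refine ⟨?_, hbc⟩
    have h1 := (S a c hac hN).2.2.1 b u (hnorm b hb) (hnorm u hu) ?_ ?_ (fun h => hbc h.2) (fun h => huc h.2)
      (R.Kst a b hb.1) (R.Kst a u hu.1)
    · rw [huinv] at h1
      exact h1.2
    · rw [show b ^ 2 = 1 from hb.2.1]; exact one_mem _
    · rw [hu2]; exact one_mem _

theorem ave (R : Rk G X D K k h l lam mu)
    (hpar : ∀ a c, a ≠ c → ¬ D a c → ∀ g : G, g • a = a → g • c = c → g ∈ K a) (S : S2 D K)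
    (hz : ∀ a c, a ≠ c → ¬ D a c → ∃ u ∈ Za K a, u ∉ K c) (a : X) :
    ∃ z : ℕ, Nat.card (Za K a) = 2 * z ∧ ∑ᶠ u ∈ {u | u ∈ Za K a ∧ u ≠ 1}, (fx X u - 1) = l * (z - 1) := by
  classical
  haveI := Fintype.ofFinite X
  haveI := Fintype.ofFinite G
  have hsymm : ∀ c, ¬ D a c → ¬ D c a := fun c h1 h2 => h1 (R.symm _ _ h2)
  have hidx : ∀ c, c ≠ a → ¬ D a c → Nat.card (Za K a) = 2 * Nat.card ((K c).subgroupOf (aveZ K a)) := by
    intro c hc hN
    have h1 := Subgroup.card_mul_index ((K c).subgroupOf (aveZ K a))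
    rw [ave_index S R hz (Ne.symm hc) hN] at h1
    have h2 : Nat.card (Za K a) = Nat.card (aveZ K a) := rfl
    rw [h2, ← h1, mul_comm]
  obtain ⟨⟨c0, hc0, hN0⟩⟩ : Nonempty {c // c ≠ a ∧ ¬ D a c} := by
    have h1 := R.cN a
    have h2 : 0 < Nat.card {c // c ≠ a ∧ ¬ D a c} := by have := R.l1; omega
    exact (Nat.card_pos_iff.1 h2).1
  refine ⟨Nat.card ((K c0).subgroupOf (aveZ K a)), hidx c0 hc0 hN0, ?_⟩
  set z := Nat.card ((K c0).subgroupOf (aveZ K a)) with hzdef
  have hzc : ∀ c, c ≠ a → ¬ D a c → Nat.card ((K c).subgroupOf (aveZ K a)) = z := by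
    intro c hc hN
    have h1 := hidx c hc hN
    have h2 := hidx c0 hc0 hN0
    omega
  let T : Finset G := Finset.univ.filter fun u => u ∈ Za K a ∧ u ≠ 1
  let Γ : Finset X := Finset.univ.filter fun c => c ≠ a ∧ ¬ D a c
  have hT : {u | u ∈ Za K a ∧ u ≠ 1} = (T : Set G) := by ext u; simp [T]
  rw [hT, finsum_mem_coe_finset]
  have hfx : ∀ u ∈ T, fx X u - 1 = ∑ c ∈ Γ, if u ∈ K c then 1 else 0 := by
    intro u hu
    rw [Finset.mem_filter] at hu
    obtain ⟨-, hu, hu1⟩ := hu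
    have hua : u • a = a := R.Kst a u hu.1
    have h1 : fx X u = (Finset.univ.filter fun x : X => u • x = x).card := by
      unfold fx
      rw [Nat.card_eq_fintype_card, Fintype.card_subtype]
    have ha : a ∈ (Finset.univ.filter fun x : X => u • x = x) := by simp [hua]
    rw [h1, ← Finset.card_erase_of_mem ha, Finset.sum_boole, Nat.cast_id]
    congr 1
    ext c
    rw [Finset.mem_erase, Finset.mem_filter, Finset.mem_filter, Finset.mem_filter]
    constructor
    · rintro ⟨hca, -, huc⟩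
      have hN : ¬ D a c := fun hD => hu1 (R.Kfree a c u hu.1 hD huc)
      exact ⟨⟨Finset.mem_univ _, hca, hN⟩, hpar c a hca (hsymm c hN) u huc hua⟩
    · rintro ⟨⟨-, hca, hN⟩, huc⟩
      exact ⟨hca, Finset.mem_univ _, R.Kst c u huc⟩
  rw [Finset.sum_congr rfl hfx, Finset.sum_comm, Finset.sum_congr rfl (g := fun _ => z - 1)]
  · rw [Finset.sum_const, smul_eq_mul]
    congr 1
    rw [← R.cN a, Nat.card_eq_fintype_card, Fintype.card_subtype]
  · intro c hc
    rw [Finset.mem_filter] at hc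
    rw [Finset.sum_boole, Nat.cast_id, ← hzc c hc.2.1 hc.2.2]
    have h1 : Nat.card ((K c).subgroupOf (aveZ K a)) = (Finset.univ.filter fun u : G => u ∈ Za K a ∧ u ∈ K c).card := by
      have e1 : Nat.card ((K c).subgroupOf (aveZ K a)) = Nat.card {u : G // u ∈ Za K a ∧ u ∈ K c} := by
        refine Nat.card_congr ⟨fun u => ⟨u.1.1, u.1.2, u.2⟩, fun u => ⟨⟨u.1, u.2.1⟩, u.2.2⟩, fun u => rfl, fun u => rfl⟩
      rw [e1, Nat.card_eq_fintype_card, Fintype.card_subtype]
    have h2 : (1 : G) ∈ (Finset.univ.filter fun u : G => u ∈ Za K a ∧ u ∈ K c) := by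
      rw [Finset.mem_filter]
      exact ⟨Finset.mem_univ _, (aveZ K a).one_mem, one_mem _⟩
    rw [h1, ← Finset.card_erase_of_mem h2]
    congr 1
    ext u
    simp only [T, Finset.mem_filter, Finset.mem_erase, Finset.mem_univ, true_and]
    tauto

end Cfsg.Agent.Lib.FR
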