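import Cfsg.Agent.Lib.FRb

set_option autoImplicit false

namespace Cfsg.Agent.Lib.FR

open MulAction Subgroup

variable {G X : Type*} [Group G] [Finite G] [Finite X] [MulAction G X] {D : X → X → Prop} {K : X → Subgroup G}
  {k h l lam mu : ℕ}

theorem cnt (R : Rk G X D K k h l lam mu) (_hk : Even k)
    (_hpar : ∀ a c, a ≠ c → ¬ D a c → ∀ g : G, g • a = a → g • c = c → g ∈ K a) (_nt : NT D K) (S : S2 D K)
    (hb : ∀ (a c : X) (u : G), u ∈ Za K a → u • c = c → u ≠ 1 → u ∈ Za K c)
    (hd : ∀ (a : X) (u : G), u ∈ Za K a → u ≠ 1 → ∀ x, ¬ D x (u • x))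
    {a : X} {u : G} (hu : u ∈ Za K a) (hu1 : u ≠ 1) : fx X u ≤ l + 1 ∧ 1 + k + l = fx X u * (l + 2 - fx X u) := by
  classical
  letI : Fintype X := Fintype.ofFinite X
  have huu : u * u = 1 := by rw [← sq]; exact hu.2.1
  have huua : ∀ x : X, u • u • x = x := fun x => by rw [← mul_smul, huu, one_smul]
  have hinv : u⁻¹ = u := inv_eq_of_mul_eq_one_left huu
  let A : Finset X := Finset.univ.filter fun x => u • x = x
  let B : Finset X := Finset.univ.filter fun x => ¬ u • x = x
  have hA : ∀ x, x ∈ A ↔ u • x = x := fun x => by simp [A]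
  have hB : ∀ x, x ∈ B ↔ ¬ u • x = x := fun x => by simp [B]
  have hAF : A.card = fx X u := by
    rw [fx, Nat.card_eq_fintype_card, Fintype.card_subtype]
  have hAB : A.card + B.card = 1 + k + l := by
    rw [Finset.card_filter_add_card_filter_not, ← R.cX, Nat.card_eq_fintype_card, Finset.card_univ]
  -- the sets `Γ(y)`
  have hΓ : ∀ y : X, (Finset.univ.filter fun x => x ≠ y ∧ ¬ D y x).card = l := fun y => by
    rw [← R.cN y, Nat.card_eq_fintype_card, Fintype.card_subtype]
  have hsub : ∀ y ∈ A, A.erase y ⊆ Finset.univ.filter fun x => x ≠ y ∧ ¬ D y x := by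
    intro y hy x hx
    rw [Finset.mem_erase, hA] at hx
    rw [Finset.mem_filter]
    refine ⟨Finset.mem_univ _, hx.1, fun hD => hu1 ?_⟩
    exact R.Kfree y x u (hb a y u hu ((hA y).1 hy) hu1).1 hD hx.2
  have haA : a ∈ A := (hA a).2 (R.Kst a u hu.1)
  have hFpos : 1 ≤ A.card := Finset.card_pos.2 ⟨a, haA⟩
  have hFl : A.card ≤ l + 1 := by
    have := Finset.card_le_card (hsub a haA)
    rw [hΓ, Finset.card_erase_of_mem haA] at this
    omega
  let r : X → X → Prop := fun y x => x ≠ y ∧ ¬ D y x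
  have habove : ∀ y ∈ A, (B.bipartiteAbove r y).card = l + 1 - A.card := by
    intro y hy
    have h1 : B.bipartiteAbove r y = (Finset.univ.filter fun x => x ≠ y ∧ ¬ D y x) \ A.erase y := by
      ext x
      simp only [Finset.bipartiteAbove, Finset.mem_filter, Finset.mem_sdiff, Finset.mem_univ, true_and,
        Finset.mem_erase, hA, hB, r]
      constructor
      · rintro ⟨h1, h2, h3⟩
        exact ⟨⟨h2, h3⟩, fun h => h1 h.2⟩
      · rintro ⟨⟨h2, h3⟩, h1⟩
        exact ⟨fun h => h1 ⟨h2, h⟩, h2, h3⟩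
    rw [h1, Finset.card_sdiff_of_subset (hsub y hy), hΓ, Finset.card_erase_of_mem hy]
    omega
  have hbelow : ∀ x ∈ B, (A.bipartiteBelow r x).card = 1 := by
    intro x hx
    have hx' : ¬ u • x = x := (hB x).1 hx
    have hne : x ≠ u • x := fun h => hx' h.symm
    have hN : ¬ D x (u • x) := hd a u hu hu1 x
    obtain ⟨s1, s2, -, -⟩ := S x (u • x) hne hN
    have hconj1 : ∀ g ∈ K x, u * g * u⁻¹ ∈ K (u • x) := fun g hg => R.Kconj u x g hg
    have hconj2 : ∀ g ∈ K (u • x), u * g * u⁻¹ ∈ K x := fun g hg => by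
      have := R.Kconj u (u • x) g hg
      rwa [huua] at this
    have hnorm : u ∈ normalizer ((K x ⊓ K (u • x) : Subgroup G) : Set G) := by
      rw [Subgroup.mem_normalizer_iff]
      intro g
      constructor
      · rintro ⟨h1, h2⟩
        exact ⟨hconj2 g h2, hconj1 g h1⟩
      · rintro ⟨h1, h2⟩
        have e : u * (u * g * u⁻¹) * u⁻¹ = g := by
          rw [hinv]
          calc u * (u * g * u) * u = (u * u) * g * (u * u) := by group
            _ = g := by rw [huu]; group
        have h3 := hconj2 _ h2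
        have h4 := hconj1 _ h1
        rw [e] at h3 h4
        exact ⟨h3, h4⟩
    obtain ⟨y, ⟨hy1, hy2⟩, hy3⟩ := s2 u hnorm (by rw [sq, huu]; exact Subgroup.one_mem _)
      (fun h => hx' (R.Kst x u h.1))
    rw [Finset.card_eq_one]
    refine ⟨y, ?_⟩
    ext z
    simp only [Finset.bipartiteBelow, Finset.mem_filter, Finset.mem_singleton, hA, r]
    constructor
    · rintro ⟨hz, hxz, hzD⟩
      apply hy3
      refine ⟨?_, hz⟩
      -- pair (z, x)
      have huz : u ∈ Za K z := hb a z u hu hz hu1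
      obtain ⟨t1, -, -, -⟩ := S z x (Ne.symm hxz) hzD
      have hQ : ∀ g ∈ K z ⊓ K x, g ∈ K (u • x) := by
        intro g hg
        have h1 := hconj1 g hg.2
        rwa [huz.2.2 g hg.1, mul_assoc, mul_inv_cancel, mul_one] at h1
      have h1 := (t1 x (u • x) (fun g hg => R.Kst x g hg.2) (fun g hg => R.Kst (u • x) g (hQ g hg))
        hne).2
      intro g hg
      rw [h1] at hg
      exact R.Kst z g hg.1
    · rintro rfl
      refine ⟨hy2, ?_, ?_⟩
      · rintro rfl
        exact hx' hy2
      · have hzx : z ≠ x := by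
          rintro rfl
          exact hx' hy2
        exact (s1 z x hy1 (fun g hg => R.Kst x g hg.1) hzx).1
  have hdc := Finset.sum_card_bipartiteAbove_eq_sum_card_bipartiteBelow (s := A) (t := B) r
  rw [Finset.sum_congr rfl habove, Finset.sum_congr rfl hbelow] at hdc
  simp only [Finset.sum_const, smul_eq_mul, mul_one] at hdc
  rw [← hAF]
  refine ⟨hFl, ?_⟩
  rw [← hAB, ← hdc]
  have : l + 2 - A.card = 1 + (l + 1 - A.card) := by omega
  rw [this, mul_add, mul_one]

end Cfsg.Agent.Lib.FR
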