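import Cfsg.Agent.Lib.FRa

/-! S2207, piece INV (helper42). -/

set_option autoImplicit false

namespace Cfsg.Agent.Lib.FR

open MulAction Subgroup

variable {G X : Type*} [Group G] [Finite G] [Finite X] [MulAction G X] {D : X → X → Prop} {K : X → Subgroup G}
  {k h l lam mu : ℕ}

theorem INV_ne1 (R : Rk G X D K k h l lam mu) (a : X) : ∃ x ∈ K a, x ≠ 1 := by
  by_contra hcon
  push Not at hcon
  have h1 : K a = ⊥ := (Subgroup.eq_bot_iff_forall _).2 hcon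
  have h2 := R.Kcard a
  rw [h1, Subgroup.card_bot] at h2
  have := R.k2
  omega

theorem INV_exD (R : Rk G X D K k h l lam mu) (a : X) : ∃ b, D a b := by
  by_contra hcon
  push Not at hcon
  have h1 := R.cD a
  have : IsEmpty {b // D a b} := ⟨fun b => hcon b.1 b.2⟩
  rw [Nat.card_of_isEmpty] at h1
  have := R.k2
  omega

theorem INV_comm (R : Rk G X D K k h l lam mu) {a b : X} (hab : D a b) {z x : G} (hza : z • a = a) (hzb : z • b = b)
    (hz1 : z ≠ 1) (hx : x ∈ K a) (hc : z * x = x * z) : x = 1 := by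
  by_contra hx1
  apply hz1
  have h1 : x • b ≠ b := fun h => hx1 (R.Kfree a b x hx hab h)
  have h2 : D a (x • b) := by
    have := R.inv x a b hab
    rwa [R.Kst a x hx] at this
  have h3 : z • (x • b) = x • b := by
    rw [← mul_smul, hc, mul_smul, hzb]
  exact R.Hfree a b (x • b) z hab h2 (Ne.symm h1) hza hzb h3

theorem INV_inverts (R : Rk G X D K k h l lam mu) {a b : X} (hab : D a b) {z : G} (hz2 : z ^ 2 = 1) (hz1 : z ≠ 1)
    (hza : z • a = a) (hzb : z • b = b) : ∀ x ∈ K a, z * x * z⁻¹ = x⁻¹ := by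
  have hcj : ∀ x ∈ K a, z * x * z⁻¹ ∈ K a := by
    intro x hx
    have := R.Kconj z a x hx
    rwa [hza] at this
  let f : K a → K a := fun x => x⁻¹ * ⟨z * x * z⁻¹, hcj x x.2⟩
  have hf : Function.Injective f := by
    intro x y hxy
    have h1 : (x : G)⁻¹ * (z * x * z⁻¹) = (y : G)⁻¹ * (z * y * z⁻¹) := congrArg Subtype.val hxy
    have h2 : z * ((x : G) * (y : G)⁻¹)  = ((x : G) * (y : G)⁻¹) * z := by
      have h3 : z * (x : G) * z⁻¹ = (x : G) * ((y : G)⁻¹ * (z * y * z⁻¹)) := by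
        rw [← h1]; group
      have h4 : z * (x : G) = (x : G) * ((y : G)⁻¹ * (z * y * z⁻¹)) * z := by
        rw [← h3]; group
      rw [← mul_assoc, h4]
      group
    have h3 := INV_comm R hab hza hzb hz1 (x := (x : G) * (y : G)⁻¹) ((K a).mul_mem x.2 ((K a).inv_mem y.2)) h2
    exact Subtype.ext (mul_inv_eq_one.1 h3)
  have hs : Function.Surjective f := Finite.injective_iff_surjective.1 hf
  intro y hy
  obtain ⟨x, hx⟩ := hs ⟨y, hy⟩
  have h1 : (x : G)⁻¹ * (z * x * z⁻¹) = y := congrArg Subtype.val hx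
  rw [← h1]
  have hzz : z * z = 1 := by rw [← pow_two]; exact hz2
  have hzi : z⁻¹ = z := inv_eq_of_mul_eq_one_left hzz
  rw [hzi]
  have h5 : z * ((x : G)⁻¹ * (z * x * z)) * z = z * (x : G)⁻¹ * z * x * (z * z) := by group
  have h6 : ((x : G)⁻¹ * (z * x * z))⁻¹ = z⁻¹ * (x : G)⁻¹ * z⁻¹ * x := by group
  rw [h5, h6, hzz, hzi, mul_one]

theorem INV_exists (R : Rk G X D K k h l lam mu) (hev : Even h) {a b : X} (hab : D a b) :
    ∃ z : G, z ^ 2 = 1 ∧ z ≠ 1 ∧ z • a = a ∧ z • b = b := by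
  haveI : Fact (Nat.Prime 2) := ⟨Nat.prime_two⟩
  have h1 : 2 ∣ Nat.card ↥(stabilizer G a ⊓ stabilizer G b) := by
    rw [R.Hcard a b hab]; exact hev.two_dvd
  obtain ⟨z, hz⟩ := exists_prime_orderOf_dvd_card' 2 h1
  have hz' : orderOf (z : G) = 2 := by rw [Subgroup.orderOf_coe]; exact hz
  refine ⟨z, ?_, ?_, ?_, ?_⟩
  · rw [← hz']; exact pow_orderOf_eq_one _
  · intro h
    rw [h, orderOf_one] at hz'
    omega
  · exact (Subgroup.mem_inf.1 z.2).1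
  · exact (Subgroup.mem_inf.1 z.2).2

theorem inv_ab (R : Rk G X D K k h l lam mu) (hev : Even h) (a : X) : ∀ x ∈ K a, ∀ y ∈ K a, x * y = y * x := by
  obtain ⟨b, hab⟩ := INV_exD R a
  obtain ⟨z, hz2, hz1, hza, hzb⟩ := INV_exists R hev hab
  have hi := INV_inverts R hab hz2 hz1 hza hzb
  intro x hx y hy
  have h1 := hi _ ((K a).mul_mem hx hy)
  have h2 : z * (x * y) * z⁻¹ = (z * x * z⁻¹) * (z * y * z⁻¹) := by group
  rw [h2, hi x hx, hi y hy, mul_inv_rev] at h1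
  have h3 := congrArg (fun w => w⁻¹) h1
  simp only [mul_inv_rev, inv_inv] at h3
  exact h3.symm

theorem inv_ex (R : Rk G X D K k h l lam mu) (hev : Even h) {a b : X} (hab : D a b) :
    ∃! z : G, z ^ 2 = 1 ∧ z ≠ 1 ∧ z • a = a ∧ z • b = b := by
  obtain ⟨z, hz⟩ := INV_exists R hev hab
  refine ⟨z, hz, ?_⟩
  intro y hy
  obtain ⟨hz2, hz1, hza, hzb⟩ := hz
  obtain ⟨hy2, hy1, hya, hyb⟩ := hy
  have hiz := INV_inverts R hab hz2 hz1 hza hzb
  have hiy := INV_inverts R hab hy2 hy1 hya hyb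
  obtain ⟨x, hx, hx1⟩ := INV_ne1 R a
  have hwa : (y * z⁻¹) • a = a := by
    have : z⁻¹ • a = a := by rw [inv_smul_eq_iff]; exact hza.symm
    rw [mul_smul, this, hya]
  have hwb : (y * z⁻¹) • b = b := by
    have : z⁻¹ • b = b := by rw [inv_smul_eq_iff]; exact hzb.symm
    rw [mul_smul, this, hyb]
  by_contra hne
  have hw1 : y * z⁻¹ ≠ 1 := fun h => hne (mul_inv_eq_one.1 h)
  apply hx1
  refine INV_comm R hab hwa hwb hw1 hx ?_
  have h1 : z⁻¹ * x * z = x⁻¹ := by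
    have h2 := hiz x hx
    have h3 := congrArg (fun w => w⁻¹) h2
    simp only [mul_inv_rev, inv_inv] at h3
    have hzz : z * z = 1 := by rw [← pow_two]; exact hz2
    have hzi : z⁻¹ = z := inv_eq_of_mul_eq_one_left hzz
    rw [hzi] at h2 ⊢
    exact h2
  have h4 : z⁻¹ * x = x⁻¹ * z⁻¹ := by rw [← h1]; group
  have h5 : y * x⁻¹ = x * y := by
    have := hiy x⁻¹ ((K a).inv_mem hx)
    rw [inv_inv] at this
    exact mul_inv_eq_iff_eq_mul.1 this
  rw [mul_assoc, h4, ← mul_assoc, h5, mul_assoc]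

theorem INV_kodd (R : Rk G X D K k h l lam mu) (hev : Even h) : ¬ 2 ∣ k := by
  have h1 : 2 ∣ k - 1 := hev.two_dvd.trans R.hk
  have := R.k2
  omega

theorem INV_notK (R : Rk G X D K k h l lam mu) (hev : Even h) {a : X} {z : G} (hz2 : z ^ 2 = 1) (hz1 : z ≠ 1) : z ∉ K a := by
  intro hz
  apply INV_kodd R hev
  rw [← R.Kcard a]
  have h1 : orderOf (⟨z, hz⟩ : K a) = 2 := by
    rw [← Subgroup.orderOf_coe]
    exact orderOf_eq_prime hz2 hz1
  rw [← h1]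
  exact orderOf_dvd_natCard _

theorem INV_fix (R : Rk G X D K k h l lam mu) (hev : Even h) {a : X} {z : G} (hz2 : z ^ 2 = 1) (hz1 : z ≠ 1)
    (ha : z • a = a) : ∃! b, D a b ∧ z • b = b := by
  have h1 : ∃ b, D a b ∧ z • b = b := by
    by_contra hcon
    push Not at hcon
    exact INV_notK R hev hz2 hz1 (R.Kall a z ha hcon)
  obtain ⟨b, hab, hb⟩ := h1
  refine ⟨b, ⟨hab, hb⟩, ?_⟩
  rintro b' ⟨hab', hb'⟩
  by_contra hne
  exact hz1 (R.Hfree a b b' z hab hab' (Ne.symm hne) ha hb hb')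

theorem inv_inv (R : Rk G X D K k h l lam mu) (hev : Even h) {a : X} {z : G} (hz : z ∈ IC (G := G) X) (ha : z • a = a) :
    (∀ x ∈ K a, z * x * z⁻¹ = x⁻¹) ∧ ∃! b, D a b ∧ z • b = b := by
  obtain ⟨hz2, hz1, -⟩ := hz
  obtain ⟨b, ⟨hab, hb⟩, hu⟩ := INV_fix R hev hz2 hz1 ha
  exact ⟨INV_inverts R hab hz2 hz1 ha hb, b, ⟨hab, hb⟩, hu⟩

theorem inv_conj (R : Rk G X D K k h l lam mu) (hev : Even h) {y z : G} (hy : y ∈ IC (G := G) X) (hz : z ∈ IC (G := G) X) :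
    ∃ g : G, g * y * g⁻¹ = z := by
  obtain ⟨hy2, hy1, a, ha⟩ := hy
  obtain ⟨hz2, hz1, a', ha'⟩ := hz
  obtain ⟨b, ⟨hab, hb⟩, -⟩ := INV_fix R hev hy2 hy1 ha
  obtain ⟨b', ⟨hab', hb'⟩, -⟩ := INV_fix R hev hz2 hz1 ha'
  obtain ⟨g, hga, hgb⟩ := R.trD a b a' b' hab hab'
  refine ⟨g, (inv_ex R hev hab').unique ⟨?_, ?_, ?_, ?_⟩ ⟨hz2, hz1, ha', hb'⟩⟩
  · rw [conj_pow, hy2, mul_one, mul_inv_cancel]
  · intro h
    apply hy1
    have : y = g⁻¹ * (g * y * g⁻¹) * g := by group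
    rw [this, h]; group
  · rw [mul_smul, mul_smul, ← hga, inv_smul_smul, ha]
  · rw [mul_smul, mul_smul, ← hgb, inv_smul_smul, hb]

theorem inv_num (R : Rk G X D K k h l lam mu) (hev : Even h) (a : X) : Nat.card {z // z ∈ IC (G := G) X ∧ z • a = a} = k := by
  rw [← R.cD a]
  have hch : ∀ b : {b // D a b}, ∃ z : G, (z ^ 2 = 1 ∧ z ≠ 1 ∧ z • a = a ∧ z • (b : X) = b) := fun b => INV_exists R hev b.2
  choose f hf using hch
  symm
  refine Nat.card_congr (Equiv.ofBijective (fun b => ⟨f b, ⟨(hf b).1, (hf b).2.1, a, (hf b).2.2.1⟩, (hf b).2.2.1⟩) ⟨?_, ?_⟩)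
  · intro b b' hbb
    have h1 : f b = f b' := congrArg Subtype.val hbb
    have h2 := hf b
    have h3 := hf b'
    rw [← h1] at h3
    exact Subtype.ext ((INV_fix R hev h2.1 h2.2.1 h2.2.2.1).unique ⟨b.2, h2.2.2.2⟩ ⟨b'.2, h3.2.2.2⟩)
  · rintro ⟨z, ⟨hz2, hz1, -⟩, hza⟩
    obtain ⟨b, ⟨hab, hb⟩, -⟩ := INV_fix R hev hz2 hz1 hza
    refine ⟨⟨b, hab⟩, Subtype.ext ?_⟩
    exact (inv_ex R hev hab).unique (hf ⟨b, hab⟩) ⟨hz2, hz1, hza, hb⟩

end Cfsg.Agent.Lib.FR
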