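import Cfsg.Agent.Lib.FRa
import Cfsg.Agent.Lib.FR_INV

/-! S2207, piece CTI (helper29): counting the involutions which fix a point. -/

set_option autoImplicit false

namespace Cfsg.Agent.Lib.FR_CTI

open MulAction Subgroup Cfsg.Agent.Lib.FR Finset

variable {G X : Type*} [Group G] [Finite G] [Finite X] [MulAction G X] {D : X → X → Prop} {K : X → Subgroup G}
  {k h l lam mu : ℕ}

omit [Finite G] [Finite X] in
theorem ic_conj {z : G} (hz : z ∈ IC (G := G) X) (g : G) : g * z * g⁻¹ ∈ IC (G := G) X := by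
  obtain ⟨h1, h2, a, h3⟩ := hz
  refine ⟨?_, ?_, g • a, ?_⟩
  · rw [conj_pow, h1, mul_one, mul_inv_cancel]
  · intro h4
    apply h2
    rwa [conj_eq_one_iff] at h4
  · rw [mul_smul, mul_smul, inv_smul_smul, h3]

omit [Finite G] [Finite X] in
theorem m_conj (g : G) (a b : X) :
    Nat.card {z : G // z ∈ IC (G := G) X ∧ z • (g • a) = g • b} = Nat.card {z : G // z ∈ IC (G := G) X ∧ z • a = b} := by
  refine Nat.card_congr ⟨fun z => ⟨g⁻¹ * z.1 * g, ?_, ?_⟩, fun z => ⟨g * z.1 * g⁻¹, ?_, ?_⟩, ?_, ?_⟩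
  · have := ic_conj z.2.1 g⁻¹
    rwa [_root_.inv_inv] at this
  · rw [mul_smul, mul_smul, z.2.2, inv_smul_smul]
  · exact ic_conj z.2.1 g
  · rw [mul_smul, mul_smul, inv_smul_smul, z.2.2]
  · intro z
    apply Subtype.ext
    show g * (g⁻¹ * z.1 * g) * g⁻¹ = z.1
    group
  · intro z
    apply Subtype.ext
    show g⁻¹ * (g * z.1 * g⁻¹) * g = z.1
    group

omit [Finite X] in
theorem m_le (a b : X) :
    Nat.card {z : G // z ∈ IC (G := G) X ∧ z • a = b} ≤ Nat.card ↥(stabilizer G a ⊓ stabilizer G b) := by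
  have sw : ∀ z : G, z ∈ IC (G := G) X → z • a = b → z⁻¹ = z ∧ z • b = a := by
    intro z hz hab
    have h1 : z * z = 1 := by rw [← pow_two]; exact hz.1
    refine ⟨inv_eq_of_mul_eq_one_left h1, ?_⟩
    rw [← hab, ← mul_smul, h1, one_smul]
  by_cases hne : Nonempty {z : G // z ∈ IC (G := G) X ∧ z • a = b}
  · obtain ⟨z0, h0, h0'⟩ := hne
    apply Nat.card_le_card_of_injective (fun z : {z : G // z ∈ IC (G := G) X ∧ z • a = b} =>
      (⟨z0⁻¹ * z.1, by
        obtain ⟨i1, i2⟩ := sw z0 h0 h0'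
        obtain ⟨j1, j2⟩ := sw z.1 z.2.1 z.2.2
        rw [Subgroup.mem_inf, mem_stabilizer_iff, mem_stabilizer_iff, mul_smul, mul_smul, z.2.2, j2, i1, i2, h0']
        exact ⟨rfl, rfl⟩⟩ : ↥(stabilizer G a ⊓ stabilizer G b)))
    intro z z' hzz
    have := congrArg Subtype.val hzz
    exact Subtype.ext (mul_left_cancel this)
  · rw [not_nonempty_iff] at hne
    rw [Nat.card_of_isEmpty]
    exact Nat.zero_le _

omit [Finite G] [Finite X] in
theorem al_conj (R : Rk G X D K k h l lam mu) (g z : G) : al D (g * z * g⁻¹) = al D z := by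
  refine Nat.card_congr ⟨fun x => ⟨g⁻¹ • x.1, ?_⟩, fun x => ⟨g • x.1, ?_⟩, ?_, ?_⟩
  · have h1 := R.inv g⁻¹ _ _ x.2
    rwa [mul_smul, mul_smul, inv_smul_smul] at h1
  · have h1 := R.inv g _ _ x.2
    rwa [mul_smul, mul_smul, inv_smul_smul]
  · intro x
    exact Subtype.ext (smul_inv_smul g x.1)
  · intro x
    exact Subtype.ext (inv_smul_smul g x.1)

theorem card_filter' {α : Type*} [Fintype α] (p : α → Prop) [DecidablePred p] :
    Nat.card {x // p x} = (univ.filter p).card := by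
  rw [Nat.card_eq_fintype_card, Fintype.card_subtype]

theorem cti_of (R : Rk G X D K k h l lam mu) {r s f : ℕ} (hlr : l = r * k)
    (hs : ∀ a c, a ≠ c → ¬ D a c → Nat.card ↥(stabilizer G a ⊓ stabilizer G c) = s)
    (hf : ∀ z ∈ IC (G := G) X, fx X z = f)
    (hnum : ∀ a : X, Nat.card {z // z ∈ IC (G := G) X ∧ z • a = a} = k)
    (hconj : ∀ y z : G, y ∈ IC (G := G) X → z ∈ IC (G := G) X → ∃ g : G, g * y * g⁻¹ = z) :
    ∃ nD nN : ℕ, nD ≤ h ∧ nN ≤ s ∧ 1 + k + l = f * (1 + nD + r * nN) ∧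
      (∀ z ∈ IC (G := G) X, al D z = f * nD) ∧
      (∀ a c, a ≠ c → ¬ D a c → Nat.card {z // z ∈ IC (G := G) X ∧ z • a = c} = nN) := by
  classical
  have := Fintype.ofFinite G
  have := Fintype.ofFinite X
  have hX : 0 < Nat.card X := by rw [R.cX]; omega
  obtain ⟨⟨a0⟩, -⟩ := Nat.card_pos_iff.1 hX
  have hk0 : 0 < k := by have := R.k2; omega
  obtain ⟨⟨⟨b0, hb0⟩⟩, -⟩ := Nat.card_pos_iff.1 (show 0 < Nat.card {b // D a0 b} by rw [R.cD]; exact hk0)
  obtain ⟨⟨⟨c0, hc0, hc0'⟩⟩, -⟩ := Nat.card_pos_iff.1 (show 0 < Nat.card {c // c ≠ a0 ∧ ¬ D a0 c} by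
    rw [R.cN]; exact R.l1)
  obtain ⟨nD, hnD⟩ : ∃ n, n = Nat.card {z : G // z ∈ IC (G := G) X ∧ z • a0 = b0} := ⟨_, rfl⟩
  obtain ⟨nN, hnN⟩ : ∃ n, n = Nat.card {z : G // z ∈ IC (G := G) X ∧ z • a0 = c0} := ⟨_, rfl⟩
  have hD : ∀ a b, D a b → Nat.card {z : G // z ∈ IC (G := G) X ∧ z • a = b} = nD := by
    intro a b hab
    obtain ⟨g, h1, h2⟩ := R.trD a0 b0 a b hb0 hab
    rw [hnD, ← h1, ← h2, m_conj]
  have hN : ∀ a c, a ≠ c → ¬ D a c → Nat.card {z : G // z ∈ IC (G := G) X ∧ z • a = c} = nN := by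
    intro a c hac hac'
    obtain ⟨g, h1, h2⟩ := R.trN a0 c0 a c (Ne.symm hc0) hc0' hac hac'
    rw [hnN, ← h1, ← h2, m_conj]
  set C : Finset G := univ.filter (fun z => z ∈ IC (G := G) X) with hC
  have hm : ∀ a b : X, Nat.card {z : G // z ∈ IC (G := G) X ∧ z • a = b} = (C.filter (fun z => z • a = b)).card := by
    intro a b
    rw [card_filter', hC, filter_filter]
  have hvX : (univ : Finset X).card = 1 + k + l := by
    rw [card_univ, ← Nat.card_eq_fintype_card, R.cX]
  -- number of all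
  have hCcard : C.card = k + k * nD + l * nN := by
    have h1 : C.card = ∑ b : X, (C.filter (fun z => z • a0 = b)).card :=
      card_eq_sum_card_fiberwise (f := fun z : G => z • a0) (t := univ) (by intro x _; simp)
    rw [h1, ← Finset.sum_filter_add_sum_filter_not univ (fun b => D a0 b)]
    have h2 : ∑ b ∈ univ.filter (fun b => D a0 b), (C.filter (fun z => z • a0 = b)).card = k * nD := by
      rw [Finset.sum_congr rfl (g := fun _ => nD), Finset.sum_const, smul_eq_mul, ← card_filter', R.cD]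
      intro b hb
      rw [← hm]
      exact hD a0 b (mem_filter.1 hb).2
    rw [h2, ← Finset.sum_filter_add_sum_filter_not (univ.filter (fun b => ¬ D a0 b)) (fun b => b ≠ a0),
      filter_filter, filter_filter]
    have h3 : ∑ b ∈ univ.filter (fun b => ¬ D a0 b ∧ b ≠ a0), (C.filter (fun z => z • a0 = b)).card = l * nN := by
      rw [Finset.sum_congr rfl (g := fun _ => nN), Finset.sum_const, smul_eq_mul, ← card_filter', ← R.cN a0]
      · congr 1
        exact Nat.card_congr (Equiv.subtypeEquivRight fun b => and_comm)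
      · intro b hb
        rw [← hm]
        exact hN a0 b (Ne.symm (mem_filter.1 hb).2.2) (mem_filter.1 hb).2.1
    have h4 : univ.filter (fun b => ¬ D a0 b ∧ ¬ b ≠ a0) = {a0} := by
      ext b
      simp only [mem_filter, mem_univ, true_and, mem_singleton, not_not]
      constructor
      · exact fun h => h.2
      · rintro rfl
        exact ⟨R.irr _, rfl⟩
    rw [h3, h4, Finset.sum_singleton, ← hm, hnum]
    ring
  -- pairs (z, a) with z a = a
  have hfixc : C.card * f = (1 + k + l) * k := by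
    have h1 : ∑ z ∈ C, (univ.filter (fun x : X => z • x = x)).card = C.card * f := by
      rw [Finset.sum_congr rfl (g := fun _ => f), Finset.sum_const, smul_eq_mul]
      intro z hz
      rw [← card_filter']
      exact hf z (mem_filter.1 hz).2
    have h2 : ∑ x : X, (C.filter (fun z => z • x = x)).card = (1 + k + l) * k := by
      rw [Finset.sum_congr rfl (g := fun _ => k), Finset.sum_const, smul_eq_mul, hvX]
      intro x _
      rw [← hm, hnum]
    rw [← h1, ← h2]
    simp_rw [card_filter]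
    exact Finset.sum_comm
  -- pairs (z, a) with D a (z a)
  have halc : ∑ z ∈ C, al D z = (1 + k + l) * (k * nD) := by
    have h1 : ∑ z ∈ C, al D z = ∑ z ∈ C, (univ.filter (fun x : X => D x (z • x))).card := by
      apply Finset.sum_congr rfl
      intro z _
      rw [← card_filter']
      rfl
    have h2 : ∑ x : X, (C.filter (fun z => D x (z • x))).card = (1 + k + l) * (k * nD) := by
      rw [Finset.sum_congr rfl (g := fun _ => k * nD), Finset.sum_const, smul_eq_mul, hvX]
      intro x _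
      have h3 : (C.filter (fun z => D x (z • x))).card = ∑ b ∈ univ.filter (fun b => D x b),
          ((C.filter (fun z => D x (z • x))).filter (fun z => z • x = b)).card :=
        card_eq_sum_card_fiberwise (f := fun z : G => z • x) (t := univ.filter (fun b => D x b)) (by
          intro z hz
          simp only [coe_filter, mem_univ, true_and, Set.mem_ofPred_eq]
          exact (mem_filter.1 hz).2)
      rw [h3, Finset.sum_congr rfl (g := fun _ => nD), Finset.sum_const, smul_eq_mul, ← card_filter', R.cD]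
      intro b hb
      rw [← hD x b (mem_filter.1 hb).2, hm]
      congr 1
      ext z
      simp only [mem_filter]
      constructor
      · rintro ⟨⟨h4, -⟩, h5⟩
        exact ⟨h4, h5⟩
      · rintro ⟨h4, h5⟩
        exact ⟨⟨h4, by rw [h5]; exact (mem_filter.1 hb).2⟩, h5⟩
    rw [h1, ← h2]
    simp_rw [card_filter]
    exact Finset.sum_comm
  refine ⟨nD, nN, ?_, ?_, ?_, ?_, hN⟩
  · rw [hnD, ← R.Hcard a0 b0 hb0]
    exact m_le a0 b0
  · rw [hnN, ← hs a0 c0 (Ne.symm hc0) hc0']
    exact m_le a0 c0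
  · apply Nat.eq_of_mul_eq_mul_right hk0
    rw [← hfixc, hCcard, hlr]
    ring
  · intro z hz
    have h1 : ∑ y ∈ C, al D y = C.card * al D z := by
      rw [Finset.sum_congr rfl (g := fun _ => al D z), Finset.sum_const, smul_eq_mul]
      intro y hy
      obtain ⟨g, hg⟩ := hconj y z (mem_filter.1 hy).2 hz
      rw [← hg, al_conj R]
    have h2 : 0 < C.card := card_pos.2 ⟨z, mem_filter.2 ⟨mem_univ _, hz⟩⟩
    apply Nat.eq_of_mul_eq_mul_left h2
    rw [← h1, halc, ← mul_assoc, ← hfixc]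
    ring

end Cfsg.Agent.Lib.FR_CTI

namespace Cfsg.Agent.Lib.FR

open MulAction Subgroup

variable {G X : Type*} [Group G] [Finite G] [Finite X] [MulAction G X] {D : X → X → Prop} {K : X → Subgroup G}
  {k h l lam mu : ℕ}

set_option linter.unusedVariables false in
theorem cti (R : Rk G X D K k h l lam mu) (hev : Even h) (ti : TI K) {r s f : ℕ} (hlr : l = r * k) (hrs : h = r * s)
    (hs : ∀ a c, a ≠ c → ¬ D a c → Nat.card ↥(stabilizer G a ⊓ stabilizer G c) = s)
    (hf : ∀ z ∈ IC (G := G) X, fx X z = f) : ∃ nD nN : ℕ, nD ≤ h ∧ nN ≤ s ∧ 1 + k + l = f * (1 + nD + r * nN) ∧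
      (∀ z ∈ IC (G := G) X, al D z = f * nD) ∧
      (∀ a c, a ≠ c → ¬ D a c → Nat.card {z // z ∈ IC (G := G) X ∧ z • a = c} = nN) :=
  FR_CTI.cti_of R hlr hs hf (inv_num R hev) (fun _ _ hy hz => inv_conj R hev hy hz)

end Cfsg.Agent.Lib.FR
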