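import Mathlib

/-! S2207 (helper31 and team): rank three groups whose point stabilizer is a Frobenius group on a suborbit: definitions. -/

set_option autoImplicit false

namespace Cfsg.Agent.Lib.FR

open MulAction

/-- `D` = the self-paired suborbit relation on which `G_a = K_a H` acts faithfully as a Frobenius group (kernel `K a` of order
`k`, complement of order `h`), `l` = size of the other suborbit, `lam, mu` = parameters of the strongly regular graph `D`. -/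
structure Rk (G X : Type*) [Group G] [MulAction G X] (D : X → X → Prop) (K : X → Subgroup G) (k h l lam mu : ℕ) : Prop where
  irr : ∀ a, ¬ D a a
  symm : ∀ a b, D a b → D b a
  inv : ∀ (g : G) (a b : X), D a b → D (g • a) (g • b)
  trX : ∀ a a' : X, ∃ g : G, g • a = a'
  trD : ∀ a b a' b', D a b → D a' b' → ∃ g : G, g • a = a' ∧ g • b = b'
  trN : ∀ a c a' c', a ≠ c → ¬ D a c → a' ≠ c' → ¬ D a' c' → ∃ g : G, g • a = a' ∧ g • c = c'
  faith : ∀ g : G, (∀ x : X, g • x = x) → g = 1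
  Kst : ∀ a, ∀ x ∈ K a, x • a = a
  Kconj : ∀ (g : G) (a : X), ∀ x ∈ K a, g * x * g⁻¹ ∈ K (g • a)
  Kcard : ∀ a, Nat.card (K a) = k
  Kreg : ∀ a b b', D a b → D a b' → ∃ x ∈ K a, x • b = b'
  Kfree : ∀ a b, ∀ x ∈ K a, D a b → x • b = b → x = 1
  Knil : ∀ a, Group.IsNilpotent (K a)
  Hcard : ∀ a b, D a b → Nat.card ↥(stabilizer G a ⊓ stabilizer G b) = h
  Hfree : ∀ (a b b' : X) (g : G), D a b → D a b' → b ≠ b' → g • a = a → g • b = b → g • b' = b' → g = 1
  /-- an element of `G_a` without fixed points in `Δ(a)` lies in `K a` -/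
  Kall : ∀ (a : X) (g : G), g • a = a → (∀ b, D a b → g • b ≠ b) → g ∈ K a
  h2 : 2 ≤ h
  hk : h ∣ k - 1
  k2 : 3 ≤ k
  card : ∀ a : X, Nat.card (stabilizer G a) = k * h
  cD : ∀ a, Nat.card {b // D a b} = k
  cN : ∀ a, Nat.card {c // c ≠ a ∧ ¬ D a c} = l
  l1 : 1 ≤ l
  cX : Nat.card X = 1 + k + l
  clam : ∀ a b, D a b → Nat.card {c // D a c ∧ D b c} = lam
  cmu : ∀ a c, a ≠ c → ¬ D a c → Nat.card {b // D a b ∧ D c b} = mu
  /-- `k (k - 1 - lam) = l mu` -/
  eq1 : k * k = k + k * lam + l * mu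
  mupos : 1 ≤ mu
  mulk : mu < k
  /-- primitivity: an element `≠ 1` of `K a` moves some point of the other suborbit -/
  prim1 : ∀ (a : X) (x : G), x ∈ K a → x ≠ 1 → ∃ c, c ≠ a ∧ ¬ D a c ∧ x • c ≠ c
  /-- primitivity: a subgroup normalized by `G_a` and by `G_c` is trivial or transitive -/
  prim2 : ∀ (a c : X) (P : Subgroup G), a ≠ c → (∀ g : G, (g • a = a ∨ g • c = c) → ∀ x ∈ P, g * x * g⁻¹ ∈ P) →
    (∀ x ∈ P, x • a = a) → P = ⊥
  prim3 : ∀ a c, (∀ b, D a b → D c b) → a = c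

/-- first step: the relation `D` only -/
structure R0 (G X : Type*) [Group G] [MulAction G X] (D : X → X → Prop) : Prop where
  irr : ∀ a, ¬ D a a
  symm : ∀ a b, D a b → D b a
  inv : ∀ (g : G) (a b : X), D a b → D (g • a) (g • b)
  trX : ∀ a a' : X, ∃ g : G, g • a = a'
  trD : ∀ a b a' b', D a b → D a' b' → ∃ g : G, g • a = a' ∧ g • b = b'
  trN : ∀ a c a' c', a ≠ c → ¬ D a c → a' ≠ c' → ¬ D a' c' → ∃ g : G, g • a = a' ∧ g • c = c'
  faith : ∀ g : G, (∀ x : X, g • x = x) → g = 1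
  prim : MulAction.IsPreprimitive G X
  exD : ∀ a, ∃ b, D a b
  exN : ∀ a, ∃ c, c ≠ a ∧ ¬ D a c
  Hfree : ∀ (a b b' : X) (g : G), D a b → D a b' → b ≠ b' → g • a = a → g • b = b → g • b' = b' → g = 1
  Hne : ∀ a b, D a b → ∃ g : G, g • a = a ∧ g • b = b ∧ g ≠ 1

/-- second step: the Frobenius kernels -/
structure R1 (G X : Type*) [Group G] [MulAction G X] (D : X → X → Prop) (K : X → Subgroup G) (k h : ℕ) : Prop where
  Kst : ∀ a, ∀ x ∈ K a, x • a = a
  Kconj : ∀ (g : G) (a : X), ∀ x ∈ K a, g * x * g⁻¹ ∈ K (g • a)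
  Kcard : ∀ a, Nat.card (K a) = k
  Kreg : ∀ a b b', D a b → D a b' → ∃ x ∈ K a, x • b = b'
  Kfree : ∀ a b, ∀ x ∈ K a, D a b → x • b = b → x = 1
  Knil : ∀ a, Group.IsNilpotent (K a)
  Hcard : ∀ a b, D a b → Nat.card ↥(stabilizer G a ⊓ stabilizer G b) = h
  Kall : ∀ (a : X) (g : G), g • a = a → (∀ b, D a b → g • b ≠ b) → g ∈ K a
  h2 : 2 ≤ h
  hk : h ∣ k - 1
  k2 : 3 ≤ k
  card : ∀ a : X, Nat.card (stabilizer G a) = k * h
  cD : ∀ a, Nat.card {b // D a b} = k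

/-- number of fixed points -/
noncomputable def fx {G : Type*} (X : Type*) [Group G] [MulAction G X] (g : G) : ℕ := Nat.card {x : X // g • x = x}

/-- number of points moved to a `D`-neighbour -/
noncomputable def al {G X : Type*} [Group G] [MulAction G X] (D : X → X → Prop) (g : G) : ℕ := Nat.card {x : X // D x (g • x)}

/-- involutions with a fixed point -/
def IC {G : Type*} (X : Type*) [Group G] [MulAction G X] : Set G := {z | z ^ 2 = 1 ∧ z ≠ 1 ∧ ∃ a : X, z • a = a}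

/-- `Ω₁(Z(K_a))` for the prime 2 -/
def Za {G X : Type*} [Group G] (K : X → Subgroup G) (a : X) : Set G := {u | u ∈ K a ∧ u ^ 2 = 1 ∧ ∀ x ∈ K a, u * x = x * u}

/-- the common hypothesis `K_a ∩ K_c = 1` -/
def TI {G X : Type*} [Group G] (K : X → Subgroup G) : Prop := ∀ a c, a ≠ c → ∀ x, x ∈ K a → x ∈ K c → x = 1

/-- the opposite hypothesis -/
def NT {G X : Type*} [Group G] (D : X → X → Prop) (K : X → Subgroup G) : Prop :=
  ∀ a c, a ≠ c → ¬ D a c → ∃ x, x ∈ K a ∧ x ∈ K c ∧ x ≠ 1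

end Cfsg.Agent.Lib.FR
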