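import Mathlib
import Cfsg.Agent.Lib.FRa

set_option autoImplicit false
set_option linter.unusedSectionVars false
set_option linter.unusedVariables false

/-! S2207: integrality of the multiplicities. -/

namespace Cfsg.Agent.Lib.FR

open MulAction Subgroup

section gen

variable {X : Type*} [Fintype X] [DecidableEq X]

theorem eig_root {T : Matrix X X ℂ} {N : ℕ} (hN : T ^ (N + 1) = T) {r : ℂ} (hr : r ∈ T.charpoly.roots) :
    r ^ (N + 1) = r := by
  have h1 : r ∈ spectrum ℂ T := Matrix.mem_spectrum_of_isRoot_charpoly ((Polynomial.mem_roots'.1 hr).2)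
  have h2 : Nontrivial (Matrix X X ℂ) := by
    by_contra h
    rw [not_nontrivial_iff_subsingleton] at h
    rw [spectrum.of_subsingleton] at h1
    exact h1
  have h3 := spectrum.subset_polynomial_aeval T (Polynomial.X ^ (N + 1) - Polynomial.X : Polynomial ℂ)
  have h4 : Polynomial.eval r (Polynomial.X ^ (N + 1) - Polynomial.X : Polynomial ℂ) ∈
      spectrum ℂ (Polynomial.aeval T (Polynomial.X ^ (N + 1) - Polynomial.X : Polynomial ℂ)) := h3 ⟨r, h1, rfl⟩
  rw [map_sub, map_pow, Polynomial.aeval_X, hN, sub_self, spectrum.zero_eq] at h4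
  simpa [sub_eq_zero] using h4

theorem eig_int {T : Matrix X X ℂ} {N : ℕ} (hN0 : 0 < N) (hN : T ^ (N + 1) = T) : IsIntegral ℤ T.trace := by
  rw [Matrix.trace_eq_sum_roots_charpoly]
  refine Multiset.sum_induction (fun z => IsIntegral ℤ z) _ (fun a b => IsIntegral.add) isIntegral_zero ?_
  intro r hr
  refine ⟨Polynomial.X ^ (N + 1) - Polynomial.X, Polynomial.monic_X_pow_sub ?_, ?_⟩
  · rw [Polynomial.degree_X]
    exact_mod_cast (by omega : 1 < N + 1)
  · have := eig_root hN hr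
    simp [this]

theorem eig_idem {T : Matrix X X ℂ} (hT : T * T = T) : ∃ f : ℕ, T.trace = f := by
  rw [Matrix.trace_eq_sum_roots_charpoly]
  refine Multiset.sum_induction (fun z : ℂ => ∃ f : ℕ, z = f) _ ?_ ⟨0, by simp⟩ ?_
  · rintro _ _ ⟨a, rfl⟩ ⟨b, rfl⟩
    exact ⟨a + b, by push_cast; rfl⟩
  · intro r hr
    have := eig_root (N := 1) (by rw [pow_two]; exact hT) hr
    have h1 : r * (r - 1) = 0 := by linear_combination this
    rcases mul_eq_zero.1 h1 with h | h
    · exact ⟨0, by rw [h]; simp⟩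
    · exact ⟨1, by rw [sub_eq_zero.1 h]; simp⟩

theorem eig_rat {z : ℂ} (hz : IsIntegral ℤ z) (q : ℚ) (hq : z = (q : ℂ)) : ∃ n : ℤ, q = n := by
  have h1 : IsIntegral ℤ q := by
    rw [hq] at hz
    have h2 : (algebraMap ℚ ℂ) q = (q : ℂ) := rfl
    rw [← h2] at hz
    exact (isIntegral_algebraMap_iff (algebraMap ℚ ℂ).injective).1 hz
  obtain ⟨n, hn⟩ := IsIntegrallyClosed.isIntegral_iff.mp h1
  exact ⟨n, by rw [← hn]; simp⟩

theorem eig_card (p : X → Prop) [DecidablePred p] : (Nat.card {y // p y} : ℂ) = ∑ y, if p y then 1 else 0 := by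
  rw [Nat.card_eq_fintype_card, Fintype.card_subtype, Finset.sum_boole]

end gen

section mat

variable {G X : Type*} [Group G] [Fintype X] [DecidableEq X] [MulAction G X]

/-- permutation matrices -/
noncomputable def eP (g : G) : Matrix X X ℂ := Matrix.of fun x y => if y = g • x then 1 else 0

theorem eP_mul (g : G) (M : Matrix X X ℂ) (x z : X) : (eP g * M : Matrix X X ℂ) x z = M (g • x) z := by
  rw [Matrix.mul_apply, Finset.sum_eq_single (g • x)]
  · simp [eP]
  · intro y _ hy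
    simp [eP, hy]
  · intro h
    exact absurd (Finset.mem_univ _) h

theorem mul_eP (g : G) (M : Matrix X X ℂ) (x z : X) : (M * eP g : Matrix X X ℂ) x z = M x (g⁻¹ • z) := by
  rw [Matrix.mul_apply, Finset.sum_eq_single (g⁻¹ • z)]
  · simp [eP]
  · intro y _ hy
    have : z ≠ g • y := by
      rintro rfl
      exact hy (inv_smul_smul g y).symm
    simp [eP, this]
  · intro h
    exact absurd (Finset.mem_univ _) h

theorem eP_pow (g : G) (n : ℕ) : (eP g : Matrix X X ℂ) ^ n = eP (g ^ n) := by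
  induction n with
  | zero =>
    ext x y
    rw [pow_zero, pow_zero, Matrix.one_apply]
    simp [eP, eq_comm]
  | succ n ih =>
    rw [pow_succ, ih]
    ext x z
    rw [eP_mul]
    simp only [eP, Matrix.of_apply, smul_smul, ← pow_succ']

end mat

variable {G X : Type*} [Group G] [Finite G] [Finite X] [MulAction G X] {D : X → X → Prop} {K : X → Subgroup G}
  {k h l lam mu : ℕ}

theorem eig_E [Fintype X] [DecidableEq X] (R : Rk G X D K k h l lam mu) (th ta : ℂ) (h1 : th - ta = (lam : ℂ) - mu)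
    (h2 : th * ta = (k : ℂ) - mu) (h3 : th + ta ≠ 0) : ∃ E : Matrix X X ℂ, E * E = E ∧
      (∀ g : G, Commute (eP g) E) ∧
      ∀ g : G, (th + ta) * (eP g * E).trace = (al D g : ℂ) - k + ta * ((fx X g : ℂ) - 1) := by
  classical
  obtain ⟨A, hA⟩ : ∃ A : Matrix X X ℂ, A = Matrix.of fun x y => if D x y then 1 else 0 := ⟨_, rfl⟩
  obtain ⟨J, hJ⟩ : ∃ J : Matrix X X ℂ, J = Matrix.of fun _ _ => 1 := ⟨_, rfl⟩
  obtain ⟨v, hv⟩ : ∃ v : ℂ, v = 1 + k + l := ⟨_, rfl⟩
  have hv0 : v ≠ 0 := by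
    rw [hv]
    exact_mod_cast (by omega : 1 + k + l ≠ 0)
  obtain ⟨κ, hκ⟩ : ∃ κ : ℂ, κ = (k + ta) / v := ⟨_, rfl⟩
  have hκv : κ * v = k + ta := by rw [hκ, div_mul_cancel₀ _ hv0]
  have heq : (k : ℂ) * k = k + k * lam + l * mu := by exact_mod_cast R.eq1
  have hmu : (mu : ℂ) = κ * (k - th) := by
    apply mul_right_cancel₀ hv0
    have : (mu : ℂ) * v = (k + ta) * (k - th) := by
      rw [hv]
      linear_combination (-1 : ℂ) * heq + k * h1 + h2
    rw [this, ← hκv]; ring
  have hAx : ∀ x y, A x y = if D x y then 1 else 0 := fun x y => by rw [hA]; rfl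
  have hJx : ∀ x y, J x y = 1 := fun x y => by rw [hJ]; rfl
  have hcX : (Fintype.card X : ℂ) = v := by
    rw [hv, ← Nat.card_eq_fintype_card, R.cX]; push_cast; ring
  have hAA : A * A = ((k : ℂ) - mu) • (1 : Matrix X X ℂ) + ((lam : ℂ) - mu) • A + (mu : ℂ) • J := by
    ext x z
    have e1 : (A * A) x z = (Nat.card {y // D x y ∧ D z y} : ℂ) := by
      rw [Matrix.mul_apply, eig_card]
      apply Finset.sum_congr rfl
      intro y _
      rw [hAx, hAx]
      by_cases hxy : D x y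
      · by_cases hyz : D y z
        · rw [if_pos hxy, if_pos hyz, if_pos ⟨hxy, R.symm _ _ hyz⟩, mul_one]
        · rw [if_neg hyz, if_neg (fun h : D x y ∧ D z y => hyz (R.symm _ _ h.2)), mul_zero]
      · rw [if_neg hxy, if_neg (fun h : D x y ∧ D z y => hxy h.1), zero_mul]
    rw [e1]
    simp only [Matrix.add_apply, Matrix.smul_apply, smul_eq_mul, hJx, hAx, Matrix.one_apply]
    by_cases hxz : x = z
    · subst hxz
      rw [if_pos rfl, if_neg (R.irr x)]
      have : Nat.card {y // D x y ∧ D x y} = k := by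
        rw [← R.cD x]
        simp only [and_self]
      rw [this]; ring
    · rw [if_neg hxz]
      by_cases hD : D x z
      · rw [if_pos hD, R.clam x z hD]; ring
      · rw [if_neg hD, R.cmu x z hxz hD]; ring
  have hAJ : A * J = (k : ℂ) • J := by
    ext x z
    rw [Matrix.mul_apply, Matrix.smul_apply, hJx, smul_eq_mul, mul_one, ← R.cD x, eig_card]
    apply Finset.sum_congr rfl
    intro y _
    rw [hJx, mul_one, hAx]
  have hJA : J * A = (k : ℂ) • J := by
    ext x z
    rw [Matrix.mul_apply, Matrix.smul_apply, hJx, smul_eq_mul, mul_one, ← R.cD z, eig_card]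
    apply Finset.sum_congr rfl
    intro y _
    rw [hJx, one_mul, hAx]
    by_cases hD : D y z
    · rw [if_pos hD, if_pos (R.symm _ _ hD)]
    · rw [if_neg hD, if_neg (fun h : D z y => hD (R.symm _ _ h))]
  have hJJ : J * J = v • J := by
    ext x z
    rw [Matrix.mul_apply, Matrix.smul_apply, hJx, smul_eq_mul, mul_one]
    simp only [hJx, mul_one, Finset.sum_const, Finset.card_univ, nsmul_eq_mul, hcX]
  obtain ⟨B, hB⟩ : ∃ B : Matrix X X ℂ, B = A + ta • (1 : Matrix X X ℂ) - κ • J := ⟨_, rfl⟩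
  have hBB : B * B = (th + ta) • B := by
    rw [hB]
    simp only [add_mul, mul_add, sub_mul, mul_sub, smul_mul_assoc, mul_smul_comm, one_mul, mul_one, hAA, hAJ, hJA, hJJ]
    ext x z
    simp only [Matrix.add_apply, Matrix.sub_apply, Matrix.smul_apply, smul_eq_mul]
    linear_combination (-((1 : Matrix X X ℂ) x z)) * h2 - (A x z) * h1 + (J x z) * hmu + (J x z) * κ * hκv
  refine ⟨(th + ta)⁻¹ • B, ?_, ?_, ?_⟩
  · rw [smul_mul_assoc, mul_smul_comm, hBB, smul_smul (th + ta)⁻¹ (th + ta), inv_mul_cancel₀ h3, one_smul]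
  · intro g
    apply Commute.smul_right
    have c1 : Commute (eP g) A := by
      show _ = _
      ext x z
      rw [eP_mul, mul_eP, hAx, hAx]
      have : D (g • x) z ↔ D x (g⁻¹ • z) := by
        constructor
        · intro h
          have := R.inv g⁻¹ _ _ h
          rwa [inv_smul_smul] at this
        · intro h
          have := R.inv g _ _ h
          rwa [smul_inv_smul] at this
      simp only [this]
    have c2 : Commute (eP g) J := by
      show _ = _
      ext x z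
      rw [eP_mul, mul_eP, hJx, hJx]
    rw [hB]
    exact (c1.add_right ((Commute.one_right _).smul_right _)).sub_right (c2.smul_right _)
  · intro g
    rw [mul_smul_comm, Matrix.trace_smul, smul_eq_mul, ← mul_assoc, mul_inv_cancel₀ h3, one_mul, hB, mul_sub, mul_add,
      mul_smul_comm, mul_smul_comm, mul_one, Matrix.trace_sub, Matrix.trace_add, Matrix.trace_smul, Matrix.trace_smul,
      smul_eq_mul, smul_eq_mul]
    have t1 : (eP g * A).trace = (al D g : ℂ) := by
      rw [al, eig_card, Matrix.trace]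
      apply Finset.sum_congr rfl
      intro x _
      rw [Matrix.diag_apply, eP_mul, hAx]
      by_cases hD : D x (g • x)
      · rw [if_pos hD, if_pos (R.symm _ _ hD)]
      · rw [if_neg hD, if_neg (fun h : D (g • x) x => hD (R.symm _ _ h))]
    have t2 : (eP g : Matrix X X ℂ).trace = (fx X g : ℂ) := by
      rw [fx, eig_card, Matrix.trace]
      apply Finset.sum_congr rfl
      intro x _
      rw [Matrix.diag_apply]
      simp only [eP, Matrix.of_apply, eq_comm]
    have t3 : (eP g * J).trace = v := by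
      rw [Matrix.trace]
      simp only [Matrix.diag_apply, eP_mul, hJx, Finset.sum_const, Finset.card_univ, nsmul_eq_mul, mul_one, hcX]
    rw [t1, t2, t3, hκv]
    ring

theorem eig (R : Rk G X D K k h l lam mu) (th ta : ℤ) (h1 : th - ta = (lam : ℤ) - mu) (h2 : th * ta = (k : ℤ) - mu)
    (h3 : 0 < th + ta) (g : G) : (th + ta) ∣ (al D g : ℤ) - k + ta * ((fx X g : ℤ) - 1) := by
  classical
  have := Fintype.ofFinite X
  have h1' : (th : ℂ) - ta = (lam : ℂ) - mu := by exact_mod_cast h1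
  have h2' : (th : ℂ) * ta = (k : ℂ) - mu := by exact_mod_cast h2
  have h3' : (th : ℂ) + ta ≠ 0 := by exact_mod_cast h3.ne'
  obtain ⟨E, hE, hc, ht⟩ := eig_E R th ta h1' h2' h3'
  have hi : IsIntegral ℤ (eP g * E).trace := by
    apply eig_int (N := orderOf g) (orderOf_pos g)
    rw [(hc g).mul_pow, eP_pow, pow_succ, pow_orderOf_eq_one, one_mul, IsIdempotentElem.pow_succ_eq _ hE]
  have ht' := ht g
  obtain ⟨n, hn⟩ := eig_rat hi (((al D g : ℤ) - k + ta * ((fx X g : ℤ) - 1) : ℤ) / ((th + ta : ℤ) : ℚ)) (by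
    push_cast
    rw [eq_div_iff h3', mul_comm]
    exact ht')
  refine ⟨n, ?_⟩
  have h4 : ((th + ta : ℤ) : ℚ) ≠ 0 := by exact_mod_cast h3.ne'
  rw [div_eq_iff h4] at hn
  have : ((al D g : ℤ) - k + ta * ((fx X g : ℤ) - 1) : ℤ) = n * (th + ta) := by exact_mod_cast hn
  rw [this]; ring

theorem sq (R : Rk G X D K k h l lam mu) : (∃ s : ℕ, (s : ℤ) ^ 2 = ((lam : ℤ) - mu) ^ 2 + 4 * ((k : ℤ) - mu)) ∨ l = k := by
  classical
  have := Fintype.ofFinite X
  by_cases hs : ∃ s : ℕ, (s : ℤ) ^ 2 = ((lam : ℤ) - mu) ^ 2 + 4 * ((k : ℤ) - mu)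
  · exact Or.inl hs
  right
  have hmk := R.mulk
  obtain ⟨dd, hdd⟩ : ∃ dd : ℤ, dd = ((lam : ℤ) - mu) ^ 2 + 4 * ((k : ℤ) - mu) := ⟨_, rfl⟩
  have hdpos : 0 < dd := by
    rw [hdd]
    have : 0 ≤ ((lam : ℤ) - mu) ^ 2 := sq_nonneg _
    omega
  obtain ⟨s, hs2⟩ : ∃ s : ℂ, s * s = (dd : ℂ) := by
    obtain ⟨s, hs⟩ := IsAlgClosed.exists_pow_nat_eq (dd : ℂ) (n := 2) (by norm_num)
    exact ⟨s, by rw [← hs, pow_two]⟩
  have hs0 : s ≠ 0 := by
    rintro rfl
    rw [mul_zero] at hs2
    exact hdpos.ne' (by exact_mod_cast hs2.symm)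
  have hddc : (dd : ℂ) = ((lam : ℂ) - mu) ^ 2 + 4 * ((k : ℂ) - mu) := by rw [hdd]; push_cast; ring
  obtain ⟨E, hE, hc, ht⟩ := eig_E R ((s + ((lam : ℂ) - mu)) / 2) ((s - ((lam : ℂ) - mu)) / 2) (by ring)
    (by linear_combination (1 / 4 : ℂ) * hs2 + (1 / 4 : ℂ) * hddc) (by
      have : (s + ((lam : ℂ) - mu)) / 2 + (s - ((lam : ℂ) - mu)) / 2 = s := by ring
      rw [this]; exact hs0)
  obtain ⟨f, hf⟩ := eig_idem hE
  have ht1 := ht 1
  have e1 : (eP (1 : G) : Matrix X X ℂ) = 1 := by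
    have := eP_pow (X := X) (1 : G) 0
    rw [pow_zero, pow_zero] at this
    exact this.symm
  have e2 : al D (1 : G) = 0 := by
    rw [al]
    have : IsEmpty {x : X // D x ((1 : G) • x)} := ⟨fun x => R.irr x.1 (by have := x.2; rwa [one_smul] at this)⟩
    exact Nat.card_of_isEmpty
  have e3 : fx X (1 : G) = 1 + k + l := by
    rw [fx, ← R.cX]
    exact Nat.card_congr (Equiv.subtypeUnivEquiv fun x => one_smul _ _)
  rw [e1, one_mul, hf, e2, e3] at ht1
  push_cast at ht1
  have h5 : s * ((2 * f - (k + l) : ℤ) : ℂ) = ((-((k + l) * (lam - mu)) - 2 * k : ℤ) : ℂ) := by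
    push_cast
    linear_combination 2 * ht1
  have h6 : dd * (2 * f - (k + l) : ℤ) ^ 2 = (-((k + l) * (lam - mu)) - 2 * k : ℤ) ^ 2 := by
    have : (dd : ℂ) * ((2 * f - (k + l) : ℤ) : ℂ) ^ 2 = ((-((k + l) * (lam - mu)) - 2 * k : ℤ) : ℂ) ^ 2 := by
      rw [← h5, ← hs2]; ring
    exact_mod_cast this
  have h7 : (2 * f - (k + l) : ℤ) = 0 := by
    by_contra h0
    have h8 : (2 * f - (k + l) : ℤ) ^ 2 ∣ (-((k + l) * (lam - mu)) - 2 * k : ℤ) ^ 2 := ⟨dd, by rw [← h6]; ring⟩
    rw [Int.pow_dvd_pow_iff (by norm_num)] at h8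
    obtain ⟨t, ht⟩ := h8
    apply hs
    refine ⟨t.natAbs, ?_⟩
    rw [Int.natAbs_sq, ← hdd]
    apply mul_right_cancel₀ (pow_ne_zero 2 h0)
    rw [h6, ht]; ring
  rw [h7] at h6
  have h8 : (-((k + l) * (lam - mu)) - 2 * k : ℤ) = 0 := by
    have : (-((k + l) * (lam - mu)) - 2 * k : ℤ) ^ 2 = 0 := by rw [← h6]; ring
    exact pow_eq_zero_iff (two_ne_zero) |>.1 this
  have hl1 := R.l1
  have hk2 := R.k2
  have h9 : ((k : ℤ) + l) * (mu - lam) = 2 * k := by linear_combination h8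
  have h10 : (mu : ℤ) - lam < 2 := by
    by_contra hcon
    have : ((k : ℤ) + l) * 2 ≤ ((k : ℤ) + l) * (mu - lam) := mul_le_mul_of_nonneg_left (by omega) (by omega)
    omega
  have h11 : 0 < (mu : ℤ) - lam := by
    by_contra hcon
    have : ((k : ℤ) + l) * (mu - lam) ≤ 0 := mul_nonpos_of_nonneg_of_nonpos (by omega) (by omega)
    omega
  have h12 : (mu : ℤ) - lam = 1 := by omega
  rw [h12] at h9
  omega

end Cfsg.Agent.Lib.FR
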