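import Cfsg.Agent.Lib.FR_INV

/-! S2207, piece ETI (helper42). -/

set_option autoImplicit false

namespace Cfsg.Agent.Lib.FR

open MulAction Subgroup

variable {G X : Type*} [Group G] [Finite G] [Finite X] [MulAction G X] {D : X → X → Prop} {K : X → Subgroup G}
  {k h l lam mu : ℕ}

theorem ETI_triv (R : Rk G X D K k h l lam mu)
    (hpar : ∀ a c, a ≠ c → ¬ D a c → ∀ g : G, g • a = a → g • c = c → g ∈ K a) (ti : TI K) {a c : X} (hac : a ≠ c)
    (hN : ¬ D a c) {g : G} (ga : g • a = a) (gc : g • c = c) : g = 1 :=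
  ti a c hac g (hpar a c hac hN g ga gc) (hpar c a (Ne.symm hac) (fun hd => hN (R.symm _ _ hd)) g gc ga)

theorem ETI_l (R : Rk G X D K k h l lam mu)
    (hpar : ∀ a c, a ≠ c → ¬ D a c → ∀ g : G, g • a = a → g • c = c → g ∈ K a) (ti : TI K) (a : X) : l = k * h := by
  rw [← R.card a]
  have h1 := R.cN a
  obtain ⟨c, hc⟩ : ∃ c, c ≠ a ∧ ¬ D a c := by
    by_contra hcon
    push Not at hcon
    have : IsEmpty {c // c ≠ a ∧ ¬ D a c} := ⟨fun c => c.2.2 (hcon c.1 c.2.1)⟩
    rw [Nat.card_of_isEmpty] at h1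
    have := R.l1
    omega
  rw [← h1]
  symm
  have key : ∀ g : stabilizer G a, (g : G) • c ≠ a ∧ ¬ D a ((g : G) • c) := by
    intro g
    have hg : (g : G) • a = a := g.2
    refine ⟨fun h => hc.1 ?_, fun h => hc.2 ?_⟩
    · exact smul_left_cancel (g : G) (h.trans hg.symm)
    · have := R.inv (g : G)⁻¹ _ _ h
      rw [inv_smul_smul] at this
      rwa [show (g : G)⁻¹ • a = a by rw [inv_smul_eq_iff]; exact hg.symm] at this
  refine Nat.card_congr (Equiv.ofBijective (fun g : stabilizer G a => ⟨(g : G) • c, key g⟩) ⟨?_, ?_⟩)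
  · intro g g' hgg
    have h2 : (g : G) • c = (g' : G) • c := congrArg Subtype.val hgg
    have hg : (g : G) • a = a := g.2
    have hg' : (g' : G) • a = a := g'.2
    have h3 : ((g' : G)⁻¹ * g) = 1 := by
      refine ETI_triv R hpar ti (Ne.symm hc.1) hc.2 ?_ ?_
      · rw [mul_smul, hg, inv_smul_eq_iff]; exact hg'.symm
      · rw [mul_smul, h2, inv_smul_smul]
    exact Subtype.ext (inv_mul_eq_one.1 h3).symm
  · rintro ⟨c', hc'⟩
    obtain ⟨g, hga, hgc⟩ := R.trN a c a c' (Ne.symm hc.1) hc.2 (Ne.symm hc'.1) hc'.2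
    exact ⟨⟨g, hga⟩, Subtype.ext hgc⟩

theorem eti (R : Rk G X D K k h l lam mu) (hodd : Odd h)
    (hpar : ∀ a c, a ≠ c → ¬ D a c → ∀ g : G, g • a = a → g • c = c → g ∈ K a) (hk : Even k) (ti : TI K) : False := by
  classical
  haveI : Fact (Nat.Prime 2) := ⟨Nat.prime_two⟩
  letI : Fintype G := Fintype.ofFinite G
  letI : Fintype X := Fintype.ofFinite X
  have hXne : Nonempty X := by
    by_contra hcon
    rw [not_nonempty_iff] at hcon
    have := R.cX
    rw [Nat.card_of_isEmpty] at this
    omega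
  obtain ⟨a⟩ := hXne
  have hl : l = k * h := ETI_l R hpar ti a
  -- odd stabilizers of pairs
  have hfix1 : ∀ t : G, t ^ 2 = 1 → t ≠ 1 → ∀ x y : X, t • x = x → t • y = y → x = y := by
    intro t ht2 ht1 x y hx hy
    by_contra hxy
    by_cases hD : D x y
    · have h1 : orderOf (⟨t, Subgroup.mem_inf.2 ⟨hx, hy⟩⟩ : ↥(stabilizer G x ⊓ stabilizer G y)) = 2 := by
        rw [← Subgroup.orderOf_coe]
        exact orderOf_eq_prime ht2 ht1
      have h2 := orderOf_dvd_natCard (⟨t, Subgroup.mem_inf.2 ⟨hx, hy⟩⟩ : ↥(stabilizer G x ⊓ stabilizer G y))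
      rw [h1, R.Hcard x y hD] at h2
      exact (Nat.not_even_iff_odd.2 hodd) (even_iff_two_dvd.2 h2)
    · exact ht1 (ETI_triv R hpar ti hxy hD hx hy)
  have hexfix : ∀ t : G, t ^ 2 = 1 → ∃ x : X, t • x = x := by
    intro t ht2
    have hX : ¬ 2 ∣ Fintype.card X := by
      rw [← Nat.card_eq_fintype_card, R.cX, hl]
      intro h2
      obtain ⟨m, hm⟩ := hk
      have : k * h = 2 * (m * h) := by rw [hm]; ring
      omega
    obtain ⟨x, hx⟩ := Equiv.Perm.exists_fixed_point_of_prime (p := 2) (n := 1) hX (σ := MulAction.toPerm t) (by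
      rw [pow_one, ← MulAction.toPermHom_apply, ← map_pow, ht2, map_one])
    exact ⟨x, hx⟩
  let T : Finset G := Finset.univ.filter (fun t => t ^ 2 = 1 ∧ t ≠ 1)
  have hT : ∀ t, t ∈ T ↔ t ^ 2 = 1 ∧ t ≠ 1 := fun t => by simp [T]
  let i0 := (T.filter (fun t => t • a = a)).card
  have hi : ∀ x : X, (T.filter (fun t => t • x = x)).card = i0 := by
    intro x
    obtain ⟨g, hg⟩ := R.trX a x
    symm
    refine Finset.card_bij (fun t _ => g * t * g⁻¹) ?_ ?_ ?_
    · intro t ht
      rw [Finset.mem_filter, hT] at ht ⊢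
      refine ⟨⟨by rw [conj_pow, ht.1.1, mul_one, mul_inv_cancel], fun h => ht.1.2 ?_⟩, ?_⟩
      · have : t = g⁻¹ * (g * t * g⁻¹) * g := by group
        rw [this, h]; group
      · rw [mul_smul, mul_smul, ← hg, inv_smul_smul, ht.2]
    · intro t _ t' _ htt
      simpa using htt
    · intro t ht
      rw [Finset.mem_filter, hT] at ht
      refine ⟨g⁻¹ * t * g, ?_, by group⟩
      rw [Finset.mem_filter, hT]
      refine ⟨⟨?_, fun h => ht.1.2 ?_⟩, ?_⟩
      · have : (g⁻¹ * t * g) ^ 2 = g⁻¹ * t ^ 2 * g := by rw [pow_two, pow_two]; group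
        rw [this, ht.1.1]; group
      · have : t = g * (g⁻¹ * t * g) * g⁻¹ := by group
        rw [this, h]; group
      · rw [mul_smul, mul_smul, hg, ht.2, ← hg, inv_smul_smul]
  -- double count
  have hcount : T.card = Fintype.card X * i0 := by
    have h1 : ∑ x : X, (T.filter (fun t => t • x = x)).card = ∑ t ∈ T, (Finset.univ.filter (fun x : X => t • x = x)).card :=
      (Finset.sum_card_bipartiteAbove_eq_sum_card_bipartiteBelow (r := fun (t : G) (x : X) => t • x = x)
        (s := T) (t := Finset.univ)).symm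
    have h2 : ∀ t ∈ T, (Finset.univ.filter (fun x : X => t • x = x)).card = 1 := by
      intro t ht
      rw [hT] at ht
      obtain ⟨x, hx⟩ := hexfix t ht.1
      rw [Finset.card_eq_one]
      refine ⟨x, ?_⟩
      ext y
      rw [Finset.mem_filter, Finset.mem_singleton]
      refine ⟨fun h => hfix1 t ht.1 ht.2 y x h.2 hx, fun h => ⟨Finset.mem_univ _, by rw [h]; exact hx⟩⟩
    rw [Finset.sum_congr rfl h2, Finset.sum_congr rfl (fun x _ => hi x)] at h1
    rw [Finset.sum_const, Finset.sum_const, Finset.card_univ, smul_eq_mul, smul_eq_mul, mul_one] at h1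
    exact h1.symm
  -- fibres
  let f : X → ℕ := fun x => (if x = a then i0 else 0) + (if D a x then h else 0) + (if x ≠ a ∧ ¬ D a x then 1 else 0)
  have hfib : T.card ≤ ∑ x : X, f x := by
    rw [Finset.card_eq_sum_card_fiberwise (f := fun t => t • a) (t := Finset.univ) (fun _ _ => Finset.mem_coe.2 (Finset.mem_univ _))]
    refine Finset.sum_le_sum fun x _ => ?_
    by_cases hxa : x = a
    · subst hxa
      simp only [f, if_true]
      have : (T.filter (fun t => t • x = x)).card = i0 := rfl
      omega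
    · rcases (T.filter (fun t => t • a = x)).eq_empty_or_nonempty with he | ⟨t0, ht0⟩
      · rw [he, Finset.card_empty]; exact Nat.zero_le _
      · rw [Finset.mem_filter, hT] at ht0
        obtain ⟨⟨ht02, ht01⟩, ht0a⟩ := ht0
        have ht0x : t0 • x = a := by rw [← ht0a, ← mul_smul, ← pow_two, ht02, one_smul]
        have hmem : ∀ t ∈ T.filter (fun t => t • a = x), t0 * t ∈ stabilizer G a ⊓ stabilizer G x := by
          intro t ht
          rw [Finset.mem_filter, hT] at ht
          have htx : t • x = a := by rw [← ht.2, ← mul_smul, ← pow_two, ht.1.1, one_smul]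
          rw [Subgroup.mem_inf, mem_stabilizer_iff, mem_stabilizer_iff, mul_smul, mul_smul, ht.2, htx]
          exact ⟨ht0x, ht0a⟩
        by_cases hD : D a x
        · have h1 : (T.filter (fun t => t • a = x)).card ≤ h := by
            have h2 : (T.filter (fun t => t • a = x)).card ≤
                (Finset.univ.filter (fun g : G => g ∈ stabilizer G a ⊓ stabilizer G x)).card := by
              refine Finset.card_le_card_of_injOn (fun t => t0 * t) ?_ ?_
              · intro t ht
                have := hmem t (Finset.mem_coe.1 ht)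
                rw [Finset.mem_coe, Finset.mem_filter]
                exact ⟨Finset.mem_univ _, this⟩
              · intro t _ t' _ htt
                exact mul_left_cancel htt
            refine h2.trans ?_
            rw [← R.Hcard a x hD, Nat.card_eq_fintype_card, Fintype.card_subtype]
          simp only [f, if_neg hxa, if_pos hD]
          omega
        · have h1 : (T.filter (fun t => t • a = x)).card ≤ 1 := by
            rw [Finset.card_le_one]
            intro t ht t' ht'
            have e1 := hmem t ht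
            have e2 := hmem t' ht'
            have e3 := ETI_triv R hpar ti (Ne.symm hxa) hD e1.1 e1.2
            have e4 := ETI_triv R hpar ti (Ne.symm hxa) hD e2.1 e2.2
            exact mul_left_cancel (e3.trans e4.symm)
          simp only [f, if_neg hxa, if_neg hD]
          rw [if_pos ⟨hxa, hD⟩]
          omega
  have hsum : ∑ x : X, f x = i0 + k * h + l := by
    simp only [f, Finset.sum_add_distrib]
    rw [Finset.sum_ite_eq' Finset.univ a, if_pos (Finset.mem_univ _)]
    rw [← Finset.sum_filter, ← Finset.sum_filter, Finset.sum_const, Finset.sum_const, smul_eq_mul, smul_eq_mul, mul_one]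
    have e1 : (Finset.univ.filter (fun x => D a x)).card = k := by
      rw [← R.cD a, Nat.card_eq_fintype_card, Fintype.card_subtype]
    have e2 : (Finset.univ.filter (fun x => x ≠ a ∧ ¬ D a x)).card = l := by
      rw [← R.cN a, Nat.card_eq_fintype_card, Fintype.card_subtype]
    rw [e1, e2]
  have hX : Fintype.card X = 1 + k + l := by rw [← Nat.card_eq_fintype_card, R.cX]
  -- an involution in K a
  obtain ⟨u, huK, hu2, hu1⟩ : ∃ u ∈ K a, u ^ 2 = 1 ∧ u ≠ 1 := by
    have h1 : 2 ∣ Nat.card (K a) := by rw [R.Kcard a]; exact hk.two_dvd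
    obtain ⟨z, hz⟩ := exists_prime_orderOf_dvd_card' 2 h1
    have hz' : orderOf (z : G) = 2 := by rw [Subgroup.orderOf_coe]; exact hz
    refine ⟨z, z.2, ?_, ?_⟩
    · rw [← hz', pow_orderOf_eq_one]
    · intro h; rw [h, orderOf_one] at hz'; omega
  have hi0 : i0 ≤ 1 := by
    have h1 : (1 + k + l) * i0 ≤ i0 + k * h + l := by
      rw [← hX, ← hcount]; exact hfib.trans hsum.le
    rw [hl] at h1
    by_contra hcon
    have h2 : 2 ≤ i0 := by omega
    have hh := R.h2
    have hk3 := R.k2
    have h3 : (k + k * h) * i0 ≤ 2 * (k * h) := by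
      have : (1 + k + k * h) * i0 = i0 + (k + k * h) * i0 := by ring
      omega
    have h4 : (k + k * h) * 2 ≤ (k + k * h) * i0 := Nat.mul_le_mul_left _ h2
    omega
  -- it is unique
  have huniq : ∀ t : G, t ^ 2 = 1 → t ≠ 1 → t • a = a → t = u := by
    intro t ht2 ht1 hta
    exact Finset.card_le_one.1 hi0 t (Finset.mem_filter.2 ⟨(hT t).2 ⟨ht2, ht1⟩, hta⟩) u
      (Finset.mem_filter.2 ⟨(hT u).2 ⟨hu2, hu1⟩, R.Kst a u huK⟩)
  obtain ⟨b, hab⟩ := INV_exD R a
  obtain ⟨g, hg1⟩ : ∃ g : ↥(stabilizer G a ⊓ stabilizer G b), g ≠ 1 := by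
    haveI : Nontrivial ↥(stabilizer G a ⊓ stabilizer G b) := by
      rw [← Finite.one_lt_card_iff_nontrivial, R.Hcard a b hab]
      have := R.h2
      omega
    exact exists_ne 1
  have hga : (g : G) • a = a := (Subgroup.mem_inf.1 g.2).1
  have hgb : (g : G) • b = b := (Subgroup.mem_inf.1 g.2).2
  have hg1' : (g : G) ≠ 1 := fun h => hg1 (Subtype.ext h)
  have hcomm : (g : G) * u * (g : G)⁻¹ = u := by
    apply huniq
    · rw [conj_pow, hu2, mul_one, mul_inv_cancel]
    · intro h
      apply hu1
      have : u = (g : G)⁻¹ * ((g : G) * u * (g : G)⁻¹) * g := by group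
      rw [this, h]; group
    · have : (g : G)⁻¹ • a = a := by rw [inv_smul_eq_iff]; exact hga.symm
      rw [mul_smul, mul_smul, this, R.Kst a u huK, hga]
  exact hu1 (INV_comm R hab hga hgb hg1' huK (mul_inv_eq_iff_eq_mul.1 hcomm))

end Cfsg.Agent.Lib.FR
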