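import Cfsg.Agent.Lib.FRa
import Cfsg.Agent.Lib.Burnside
import Cfsg.Agent.Lib.MinNormSolv

/-! S2207, piece FIN16 (helper37). -/

set_option autoImplicit false
set_option linter.all false

namespace Cfsg.Agent.Lib.FR

open MulAction Subgroup

theorem fin16_min {G : Type*} [Group G] [Finite G] [Nontrivial G] : ∃ M : Subgroup G, M.Normal ∧ M ≠ ⊥ ∧
    ∀ K : Subgroup G, K.Normal → K ≤ M → K = ⊥ ∨ K = M := by
  obtain ⟨M, -, hM⟩ := (Set.toFinite {K : Subgroup G | K.Normal ∧ K ≠ ⊥}).exists_le_minimal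
    (show (⊤ : Subgroup G) ∈ {K : Subgroup G | K.Normal ∧ K ≠ ⊥} from ⟨inferInstance, top_ne_bot⟩)
  refine ⟨M, hM.prop.1, hM.prop.2, fun K hK hKM => ?_⟩
  by_cases h : K = ⊥
  · exact Or.inl h
  · exact Or.inr (le_antisymm hKM (hM.le_of_le ⟨hK, h⟩ hKM))

theorem fin16 {G X : Type*} [Group G] [Finite G] [Finite X] [MulAction G X] (hprim : MulAction.IsPreprimitive G X)
    (hf : ∀ g : G, (∀ x : X, g • x = x) → g = 1) (hX : Nat.card X = 16) (hG : Nat.card G = 320 ∨ Nat.card G = 576) :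
    IsSolvable G ∧ ∃ N : Subgroup G, N.Normal ∧ Nat.card N = 16 ∧ ∀ x y : X, ∃! n : ↥N, (n : G) • x = y := by
  have hsol : Group.IsSolvable G := by
    rcases hG with h | h
    · exact Cfsg.Agent.Lib.Burnside.isSolvable_of_card_eq _ 2 5 6 1 (by norm_num) (by norm_num) (by rw [h]; norm_num) rfl
    · exact Cfsg.Agent.Lib.Burnside.isSolvable_of_card_eq _ 2 3 6 2 (by norm_num) (by norm_num) (by rw [h]; norm_num) rfl
  refine ⟨hsol, ?_⟩
  haveI : FaithfulSMul G X := by
    constructor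
    intro g g' h
    have h1 := hf (g'⁻¹ * g) fun x => by rw [mul_smul, h x, inv_smul_smul]
    exact (inv_mul_eq_one.1 h1).symm
  haveI : Nontrivial G := by
    rcases hG with h | h <;> exact Finite.one_lt_card_iff_nontrivial.1 (by rw [h]; norm_num)
  obtain ⟨N, hN, hN1, hmin⟩ := fin16_min (G := G)
  haveI := hN
  haveI := hsol
  haveI := hprim
  have hfree : ∀ x : X, N ⊓ stabilizer G x = ⊥ := fun x =>
    (Cfsg.Agent.Lib.MinNormSolv.primitive_solvable hprim N hN1 hmin x).2.2.2.1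
  have htr : IsPretransitive N X := by
    apply IsQuasiPreprimitive.isPretransitive_of_normal (G := G)
    intro h
    apply hN1
    rw [Subgroup.eq_bot_iff_forall]
    intro n hn
    apply hf
    intro x
    have h1 : x ∈ fixedPoints N X := by rw [h]; trivial
    exact h1 ⟨n, hn⟩
  have huniq : ∀ x y : X, ∃! n : ↥N, (n : G) • x = y := by
    intro x y
    obtain ⟨n, hn⟩ := exists_smul_eq N x y
    refine ⟨n, hn, fun m hm => ?_⟩
    have h1 : ((n : G)⁻¹ * (m : G)) ∈ N ⊓ stabilizer G x := by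
      refine ⟨N.mul_mem (N.inv_mem n.2) m.2, ?_⟩
      show ((n : G)⁻¹ * (m : G)) • x = x
      rw [mul_smul, hm, inv_smul_eq_iff]
      exact hn.symm
    rw [hfree, Subgroup.mem_bot] at h1
    exact Subtype.ext (inv_mul_eq_one.1 h1).symm
  refine ⟨N, hN, ?_, huniq⟩
  haveI : Nonempty X := by
    by_contra h
    rw [not_nonempty_iff] at h
    rw [Nat.card_of_isEmpty] at hX
    omega
  obtain ⟨x⟩ := (inferInstance : Nonempty X)
  rw [← hX]
  refine Nat.card_congr (Equiv.ofBijective (fun n : N => (n : G) • x) ⟨fun n m h => ?_, fun y => ?_⟩)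
  · exact (huniq x ((m : G) • x)).unique h rfl
  · obtain ⟨n, hn, -⟩ := huniq x y
    exact ⟨n, hn⟩

end Cfsg.Agent.Lib.FR
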