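import Mathlib
import Cfsg.Agent.S0144
import Cfsg.Agent.Lib.ClSmall
import Cfsg.Agent.Lib.SubgroupTools

/-! S2207, piece FIN5 (helper3): a primitive group of degree 10 and order 60 is the alternating group of degree 5. -/

set_option autoImplicit false

namespace Cfsg.Agent.Lib.FR

open MulAction Subgroup

theorem FIN5_trans {G X : Type*} [Group G] [Finite G] [Finite X] [MulAction G X] (hprim : MulAction.IsPreprimitive G X)
    (hf : ∀ g : G, (∀ x : X, g • x = x) → g = 1) (hX : Nat.card X = 10) (N : Subgroup G) (hN : N.Normal) (hne : N ≠ ⊥) :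
    10 ∣ Nat.card N := by
  have h1 : MulAction.fixedPoints N X ≠ Set.univ := by
    intro h
    apply hne
    rw [Subgroup.eq_bot_iff_forall]
    intro n hn
    apply hf
    intro x
    have hx : x ∈ MulAction.fixedPoints N X := by rw [h]; trivial
    exact hx ⟨n, hn⟩
  haveI : MulAction.IsPretransitive N X := MulAction.IsQuasiPreprimitive.isPretransitive_of_normal h1
  have hne : Nonempty X := by
    exact (Nat.card_pos_iff.mp (by omega : 0 < Nat.card X)).1
  obtain ⟨x⟩ := hne
  have h2 := MulAction.index_stabilizer_of_transitive N x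
  rw [hX] at h2
  rw [← h2]
  exact Subgroup.index_dvd_card _

theorem fin5 {G X : Type*} [Group G] [Finite G] [Finite X] [MulAction G X] (hprim : MulAction.IsPreprimitive G X)
    (hf : ∀ g : G, (∀ x : X, g • x = x) → g = 1) (hX : Nat.card X = 10) (hG : Nat.card G = 60) :
    Nonempty (G ≃* ↥(alternatingGroup (Fin 5))) := by
  have key : ∀ N : Subgroup G, N.Normal → N ≠ ⊥ → N = ⊤ := by
    intro N hN hne
    by_contra htop
    have h10 := FIN5_trans hprim hf hX N hN hne
    have h60 : Nat.card N ∣ 60 := hG ▸ Subgroup.card_subgroup_dvd_card N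
    have hlt : Nat.card N ≠ 60 := by
      intro h
      exact htop (Subgroup.eq_top_of_card_eq N (by rw [h, hG]))
    have hcases : Nat.card N = 10 ∨ Nat.card N = 20 ∨ Nat.card N = 30 := by
      have hle := Nat.le_of_dvd (by norm_num) h60
      obtain ⟨j, hj⟩ := h10
      have hj6 : j ≤ 6 := by omega
      interval_cases j <;> simp_all
    have hsol : Group.IsSolvable N := by
      rcases hcases with h | h | h
      · exact Cfsg.Agent.S0144.result 2 5 1 1 Nat.prime_two Nat.prime_five (by rw [h]; norm_num)
      · exact Cfsg.Agent.S0144.result 2 5 2 1 Nat.prime_two Nat.prime_five (by rw [h]; norm_num)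
      · haveI : IsZGroup N := IsZGroup.of_squarefree (by rw [h]; decide +kernel)
        infer_instance
    haveI hnt : Nontrivial N := (Subgroup.nontrivial_iff_ne_bot N).mpr hne
    obtain ⟨r, E, hr, hE, hEc, -, hEp⟩ := Cfsg.Agent.Lib.SubgroupTools.exists_characteristic_elementary N
    have hEn : (E.map N.subtype).Normal := inferInstance
    have hEne : E.map N.subtype ≠ ⊥ := by
      rwa [ne_eq, Subgroup.map_eq_bot_iff_of_injective _ N.subtype_injective]
    have h1 := FIN5_trans hprim hf hX _ hEn hEne
    have hp : IsPGroup r (E.map N.subtype) := by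
      rintro ⟨_, y, hy, rfl⟩
      refine ⟨1, ?_⟩
      apply Subtype.ext
      have := hEp y hy
      simpa using congrArg Subtype.val this
    haveI : Fact r.Prime := ⟨hr⟩
    obtain ⟨k, hk⟩ := IsPGroup.iff_card.mp hp
    rw [hk] at h1
    have h2 : 2 ∣ r := Nat.prime_two.dvd_of_dvd_pow (Dvd.dvd.trans (by norm_num) h1)
    have h5 : 5 ∣ r := Nat.prime_five.dvd_of_dvd_pow (Dvd.dvd.trans (by norm_num) h1)
    have e2 := (Nat.prime_dvd_prime_iff_eq Nat.prime_two hr).mp h2
    have e5 := (Nat.prime_dvd_prime_iff_eq Nat.prime_five hr).mp h5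
    omega
  haveI : Nontrivial G := by
    apply (Finite.one_lt_card_iff_nontrivial).mp
    rw [hG]; norm_num
  haveI : IsSimpleGroup G := ⟨fun N hN => by
    by_cases h : N = ⊥
    · exact Or.inl h
    · exact Or.inr (key N hN h)⟩
  exact Cfsg.Agent.Lib.ClSmall.equiv_alternating_five hG

end Cfsg.Agent.Lib.FR
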