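import Mathlib
import Cfsg.Agent.Lib.FRa

set_option autoImplicit false

/-! S2207, piece HL. -/

namespace Cfsg.Agent.Lib.FR

open MulAction Subgroup

variable {G X : Type*} [Group G] [Finite G] [Finite X] [MulAction G X] {D : X → X → Prop} {K : X → Subgroup G}
  {k h l lam mu : ℕ}

theorem hl72_dvd_of_free {H Y : Type*} [Group H] [Finite H] [Finite Y] [MulAction H Y]
    (hf : ∀ (g : H) (y : Y), g • y = y → g = 1) : Nat.card H ∣ Nat.card Y := by
  have e := MulAction.selfEquivSigmaOrbitsQuotientStabilizer H Y
  haveI : Finite (MulAction.orbitRel.Quotient H Y) := Quotient.finite _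
  haveI := Fintype.ofFinite (MulAction.orbitRel.Quotient H Y)
  rw [Nat.card_congr e, Nat.card_sigma]
  apply Finset.dvd_sum
  intro ω _
  have h1 : stabilizer H (Quotient.out ω : Y) = ⊥ := by
    rw [eq_bot_iff]
    intro g hg
    exact Subgroup.mem_bot.2 (hf g _ hg)
  rw [h1]
  rw [← Subgroup.index_eq_card, Subgroup.index_bot]

theorem hl72 (R : Rk G X D K k h l lam mu) :
    h ∣ lam ∧ (∀ a c, a ≠ c → ¬ D a c → l * Nat.card ↥(stabilizer G a ⊓ stabilizer G c) = k * h) := by
  constructor
  · have hX : 0 < Nat.card X := by rw [R.cX]; omega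
    obtain ⟨⟨a⟩, -⟩ := Nat.card_pos_iff.1 hX
    have hD : 0 < Nat.card {b // D a b} := by rw [R.cD a]; have := R.k2; omega
    obtain ⟨⟨b, hab⟩, -⟩ := Nat.card_pos_iff.1 hD
    rw [← R.Hcard a b hab, ← R.clam a b hab]
    letI : MulAction ↥(stabilizer G a ⊓ stabilizer G b) {c // D a c ∧ D b c} :=
      { smul := fun g c => ⟨(g : G) • (c : X), by
          have h1 := R.inv g a c c.2.1
          rwa [show (g : G) • a = a from g.2.1] at h1, by
          have h1 := R.inv g b c c.2.2
          rwa [show (g : G) • b = b from g.2.2] at h1⟩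
        one_smul := fun c => Subtype.ext (one_smul G (c : X))
        mul_smul := fun g g' c => Subtype.ext (mul_smul (g : G) (g' : G) (c : X)) }
    apply hl72_dvd_of_free
    intro g c hgc
    apply Subtype.ext
    have h1 : (g : G) • (c : X) = c := congrArg Subtype.val hgc
    refine R.Hfree a b c g hab c.2.1 ?_ g.2.1 g.2.2 h1
    rintro hbc
    have := c.2.2
    rw [← hbc] at this
    exact R.irr b this
  · intro a c hac hN
    have h1 : Nat.card (MulAction.orbit (stabilizer G a) c) * Nat.card (stabilizer (stabilizer G a) c) =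
        Nat.card (stabilizer G a) := by
      rw [← Nat.card_prod]
      exact Nat.card_congr (MulAction.orbitProdStabilizerEquivGroup (stabilizer G a) c)
    have h2 : Nat.card (MulAction.orbit (stabilizer G a) c) = l := by
      rw [← R.cN a]
      apply Nat.card_congr
      apply Equiv.subtypeEquivRight
      intro y
      constructor
      · rintro ⟨g, rfl⟩
        have hg : (g : G) • a = a := g.2
        refine ⟨fun h3 => hac ?_, fun h3 => hN ?_⟩
        · have h4 : (g : G) • c = (g : G) • a := by rw [hg]; exact h3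
          exact (smul_left_cancel _ h4).symm
        · have h4 := R.inv (g : G)⁻¹ a _ h3
          have h5 : (g : G)⁻¹ • a = a := by rw [inv_smul_eq_iff, hg]
          rw [h5] at h4
          have h6 : (g : G)⁻¹ • (fun m : stabilizer G a => m • c) g = c := inv_smul_smul (g : G) c
          rwa [h6] at h4
      · rintro ⟨hya, hyD⟩
        obtain ⟨g, hga, hgc⟩ := R.trN a c a y hac hN (Ne.symm hya) hyD
        exact ⟨⟨g, hga⟩, hgc⟩
    have h3 : Nat.card (stabilizer (stabilizer G a) c) = Nat.card ↥(stabilizer G a ⊓ stabilizer G c) := by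
      apply Nat.card_congr
      exact
        { toFun := fun g => ⟨((g : stabilizer G a) : G), ⟨g.1.2, g.2⟩⟩
          invFun := fun g => ⟨⟨(g : G), g.2.1⟩, g.2.2⟩
          left_inv := fun g => rfl
          right_inv := fun g => rfl }
    rw [← h3, ← h2, h1, R.card a]

end Cfsg.Agent.Lib.FR
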