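import Cfsg.Agent.Lib.FRa

/-! S2207, piece KC (helper29). -/

set_option autoImplicit false

namespace Cfsg.Agent.Lib.FR

open MulAction Subgroup

variable {G X : Type*} [Group G] [Finite G] [Finite X] [MulAction G X] {D : X → X → Prop} {K : X → Subgroup G}
  {k h l lam mu : ℕ}

omit [Finite X] in
theorem kc (R : Rk G X D K k h l lam mu) {a c : X} {x : G} (hx : x ∈ K a) (hc : x • c = c) : x ∈ K c := by
  have hle : K c ≤ stabilizer G c := fun y hy => R.Kst c y hy
  have hn : ((K c).subgroupOf (stabilizer G c)).Normal := by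
    constructor
    intro n hn g
    rw [mem_subgroupOf] at hn ⊢
    have h1 := R.Kconj g c n hn
    have h2 : (g : G) • c = c := g.2
    rw [h2] at h1
    exact h1
  have hidx : ((K c).subgroupOf (stabilizer G c)).index = h := by
    have h1 := ((K c).subgroupOf (stabilizer G c)).card_mul_index
    rw [Nat.card_congr (subgroupOfEquivOfLe hle).toEquiv, R.Kcard, R.card] at h1
    have hk : 0 < k := by have := R.k2; omega
    exact Nat.eq_of_mul_eq_mul_left hk h1
  have h1 : x ^ h ∈ K c := by
    have h2 := ((K c).subgroupOf (stabilizer G c)).pow_index_mem (⟨x, hc⟩ : stabilizer G c)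
    rw [hidx, mem_subgroupOf] at h2
    exact h2
  have h2 : x ^ k = 1 := by
    have h3 : (⟨x, hx⟩ : K a) ^ Nat.card (K a) = 1 := pow_card_eq_one'
    rw [R.Kcard] at h3
    exact congrArg Subtype.val h3
  have hcop : Nat.Coprime h k := by
    have h3 := R.hk
    have h4 := R.k2
    have h5 : Nat.Coprime (k - 1) k := by
      have : k = (k - 1) + 1 := by omega
      rw [Nat.coprime_comm]
      nth_rewrite 1 [this]
      simp
    exact Nat.Coprime.coprime_dvd_left h3 h5
  obtain ⟨u, -, hu⟩ := Nat.exists_mul_mod_eq_one_of_coprime hcop (by have := R.k2; omega)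
  have h3 : (x ^ h) ^ u = x := by
    rw [← pow_mul, ← Nat.mod_add_div (h * u) k, hu, pow_add, pow_mul, h2, one_pow, pow_one, mul_one]
  rw [← h3]
  exact pow_mem h1 u

end Cfsg.Agent.Lib.FR
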