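import Cfsg.Agent.Lib.FRa

/-! S2207 piece KE (helper24): `k` is even when `h` is odd. -/

set_option autoImplicit false

namespace Cfsg.Agent.Lib.FR

open MulAction Subgroup

variable {G X : Type*} [Group G] [Finite G] [Finite X] [MulAction G X] {D : X → X → Prop} {K : X → Subgroup G}
  {k h l lam mu : ℕ}

theorem ke_l_dvd (R : Rk G X D K k h l lam mu) (a : X) : l ∣ k * h := by
  classical
  have hl1 : 1 ≤ l := R.l1
  have hne : Nat.card {c // c ≠ a ∧ ¬ D a c} ≠ 0 := by
    rw [R.cN a]; omega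
  obtain ⟨⟨c, hc1, hc2⟩⟩ := (Nat.card_ne_zero.mp hne).1
  have horb : MulAction.orbit (stabilizer G a) c = {c' | c' ≠ a ∧ ¬ D a c'} := by
    ext c'
    constructor
    · rintro ⟨⟨g, hg⟩, rfl⟩
      have hga : g • a = a := hg
      refine ⟨?_, ?_⟩
      · intro h1
        apply hc1
        have h1' : g • c = a := h1
        have : c = g⁻¹ • a := by rw [← h1']; simp
        rw [this]
        rw [inv_smul_eq_iff, hga]
      · intro h1
        apply hc2
        have h1' : D a (g • c) := h1
        have h2 := R.inv g⁻¹ _ _ h1'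
        rw [inv_smul_smul] at h2
        have h3 : g⁻¹ • a = a := by rw [inv_smul_eq_iff, hga]
        rwa [h3] at h2
    · rintro ⟨h1, h2⟩
      obtain ⟨g, hg1, hg2⟩ := R.trN a c a c' (Ne.symm hc1) hc2 (Ne.symm h1) h2
      exact ⟨⟨g, hg1⟩, hg2⟩
  have hcard : Nat.card (MulAction.orbit (stabilizer G a) c) = l := by
    rw [horb]
    exact R.cN a
  have h1 : Nat.card (MulAction.orbit (stabilizer G a) c) ∣ Nat.card (stabilizer G a) := by
    rw [Nat.card_congr (MulAction.orbitEquivQuotientStabilizer (stabilizer G a) c)]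
    exact Subgroup.card_quotient_dvd_card _
  rw [hcard, R.card a] at h1
  exact h1

theorem ke_card (R : Rk G X D K k h l lam mu) (a : X) : Nat.card G = (1 + k + l) * (k * h) := by
  classical
  have h1 : MulAction.orbit G a = Set.univ := by
    ext a'
    simp only [Set.mem_univ, iff_true]
    obtain ⟨g, hg⟩ := R.trX a a'
    exact ⟨g, hg⟩
  have h2 : Nat.card (MulAction.orbit G a) = 1 + k + l := by
    rw [h1, ← R.cX]
    exact Nat.card_congr (Equiv.Set.univ X)
  rw [← h2, ← R.card a, Nat.card_congr (MulAction.orbitEquivQuotientStabilizer G a)]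
  exact Subgroup.card_eq_card_quotient_mul_card_subgroup _

theorem keven (R : Rk G X D K k h l lam mu) (hodd : Odd h) : Even k := by
  classical
  by_contra hk
  rw [Nat.not_even_iff_odd] at hk
  have hX : Nat.card X ≠ 0 := by rw [R.cX]; omega
  obtain ⟨a⟩ := (Nat.card_ne_zero.mp hX).1
  have hD : Nat.card {b // D a b} ≠ 0 := by
    rw [R.cD a]; have := R.k2; omega
  obtain ⟨⟨b, hab⟩⟩ := (Nat.card_ne_zero.mp hD).1
  have hl : Odd l := by
    have h1 : Odd (k * h) := hk.mul hodd
    exact h1.of_dvd_nat (ke_l_dvd R a)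
  have hG : Odd (Nat.card G) := by
    rw [ke_card R a]
    refine Odd.mul ?_ (hk.mul hodd)
    have h2 : Even (1 + k) := by
      rcases hk with ⟨m, hm⟩
      exact ⟨m + 1, by omega⟩
    exact h2.add_odd hl
  obtain ⟨g, hg1, hg2⟩ := R.trD a b b a hab (R.symm _ _ hab)
  have hsq : (g ^ 2) • a = a := by
    rw [pow_two, mul_smul, hg1, hg2]
  have hog : Odd (orderOf g) := hG.of_dvd_nat (orderOf_dvd_natCard g)
  obtain ⟨m, hm⟩ := hog
  have h3 : (g ^ 2) ^ (m + 1) = g := by
    rw [← pow_mul]
    have : 2 * (m + 1) = orderOf g + 1 := by omega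
    rw [this, pow_succ, pow_orderOf_eq_one, one_mul]
  have h4 : (g ^ 2) ^ (m + 1) ∈ stabilizer G a := by
    apply Subgroup.pow_mem
    exact hsq
  rw [h3] at h4
  have h5 : g • a = a := h4
  rw [hg1] at h5
  rw [h5] at hab
  exact R.irr a hab

end Cfsg.Agent.Lib.FR
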