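import Mathlib
import Cfsg.Agent.Lib.FRa

set_option autoImplicit false
set_option linter.all false

namespace Cfsg.Agent.Lib.FR

open MulAction Subgroup

theorem ntf_sq1 (t q : ℕ) (h : t * t + 1 = (2 * q + 1) * (2 * q + 1)) : q = 0 := by
  have h6 : t < 2 * q + 1 := by
    by_contra hcon
    push Not at hcon
    have := Nat.mul_le_mul hcon hcon
    omega
  have h8 : t ≤ 2 * q := by omega
  have h9 := Nat.mul_le_mul h8 h8
  have h10 : (2 * q + 1) * (2 * q + 1) = 2 * q * (2 * q) + 4 * q + 1 := by ring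
  rw [h10] at h
  omega

theorem ntf_sq2 (k t : ℕ) (h : 36 * (t * t) = k * k + 54 * k + 9) : k ≤ 333 := by
  have h9 : 6 * t < k + 27 := by
    by_contra hcon
    push Not at hcon
    have h1 := Nat.mul_le_mul hcon hcon
    have h2 : 6 * t * (6 * t) = 36 * (t * t) := by ring
    have h3 : (k + 27) * (k + 27) = k * k + 54 * k + 729 := by ring
    rw [h2, h3] at h1
    omega
  have h12 : 6 * t ≤ k + 26 := by omega
  have h13 := Nat.mul_le_mul h12 h12
  have h2 : 6 * t * (6 * t) = 36 * (t * t) := by ring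
  have h3 : (k + 26) * (k + 26) = k * k + 52 * k + 676 := by ring
  rw [h2, h3] at h13
  omega

theorem ntf_pow {k J : ℕ} (hkJ : k = 3 ^ J) (hJ : 2 ≤ J) (hk : k ≤ 333) : k = 9 ∨ k = 27 ∨ k = 81 ∨ k = 243 := by
  have hJ5 : J ≤ 5 := by
    by_contra hcon
    push Not at hcon
    have : 3 ^ 6 ≤ 3 ^ J := Nat.pow_le_pow_right (by norm_num) hcon
    rw [← hkJ] at this
    omega
  interval_cases J <;> simp_all

theorem ntf_nosq (t m : ℕ) (h : 36 * (t * t) = 2196 ∨ 36 * (t * t) = 10944 ∨ 36 * (t * t) = 72180) : False := by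
  have h14 : t ≤ 44 := by
    by_contra hcon
    push Not at hcon
    have := Nat.mul_le_mul hcon hcon
    omega
  interval_cases t <;> omega

set_option maxHeartbeats 2000000 in
theorem ntf {k h l lam mu J F : ℕ} (hh : 2 ≤ h) (hk : h ∣ k - 1) (hkJ : k = 3 ^ J) (hJ : 2 ≤ J) (hl : 2 * l = 3 * h)
    (hev : Even h) (heq : k * k = k + k * lam + l * mu) (hlam : h ∣ lam) (hmu : 1 ≤ mu) (hmk : mu < k) (hF : 2 * F = h + 4)
    (hN : h ≠ 2) (hv : F * (k - 1) ^ 2 ≤ (1 + k + l - F) * (k - 1 + lam + (F - 2) * mu))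
    (hsq : (∃ t : ℕ, (t : ℤ) ^ 2 = ((lam : ℤ) - mu) ^ 2 + 4 * ((k : ℤ) - mu)) ∨ l = k) : k = 9 ∧ h = 4 ∧ l = 6 := by
  obtain ⟨N, hhN⟩ := hev
  obtain ⟨w, hw⟩ := hk
  obtain ⟨y, hy⟩ := hlam
  have hk9 : 9 ≤ k := by
    rw [hkJ]
    calc 9 = 3 ^ 2 := by norm_num
      _ ≤ 3 ^ J := Nat.pow_le_pow_right (by norm_num) hJ
  have hN2 : 2 ≤ N := by omega
  have hl3 : l = 3 * N := by omega
  have hF2 : F = N + 2 := by omega
  have hkw : k = 1 + 2 * N * w := by
    have : k = 1 + (k - 1) := by omega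
    rw [this, hw, hhN]; ring
  have hlamy : lam = 2 * N * y := by rw [hy, hhN]; ring
  subst hl3
  subst hF2
  subst hlamy
  have hNpos : (0 : ℤ) < N := by exact_mod_cast (by omega : 0 < N)
  -- w - y = 1
  have h1 : 2 * (k : ℤ) * ((w : ℤ) - y) = 3 * mu := by
    have h2 : (k : ℤ) * k = k + k * (2 * N * y) + 3 * N * mu := by exact_mod_cast heq
    have h3 : (k : ℤ) = 1 + 2 * N * w := by exact_mod_cast hkw
    have h4 : (N : ℤ) * (2 * (k : ℤ) * ((w : ℤ) - y)) = N * (3 * mu) := by
      have h5 : (k : ℤ) * (k - 1 - 2 * N * y) = 3 * N * mu := by linear_combination h2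
      have h6 : (k : ℤ) - 1 - 2 * N * y = 2 * N * (w - y) := by linear_combination h3
      rw [h6] at h5
      linear_combination h5
    exact mul_left_cancel₀ hNpos.ne' h4
  have hkpos : (0 : ℤ) < k := by exact_mod_cast (by omega : 0 < k)
  have hmupos : (0 : ℤ) < mu := by exact_mod_cast (by omega : 0 < mu)
  have hmk' : (mu : ℤ) < k := by exact_mod_cast hmk
  have h2 : (w : ℤ) - y = 1 := by
    have h3 : 0 < (w : ℤ) - y := by
      by_contra hcon
      push Not at hcon
      nlinarith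
    have h4 : (w : ℤ) - y < 2 := by
      by_contra hcon
      push Not at hcon
      nlinarith
    omega
  have hwy : w = y + 1 := by omega
  have h3mu : 3 * mu = 2 * k := by
    have : (3 : ℤ) * mu = 2 * k := by rw [← h1, h2]; ring
    exact_mod_cast this
  -- variance inequality
  have hv1 : 1 + k + 3 * N - (N + 2) = 2 * N * w + 2 * N := by clear hsq; rw [hkw]; omega
  have hv2 : k - 1 = 2 * N * w := by clear hsq hv hv1; omega
  have hv3 : N + 2 - 2 = N := by clear hsq; omega
  rw [hv1, hv2, hv3] at hv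
  have hv4 : (N + 2) * (4 * (N * N) * (w * w)) * 3 ≤ (2 * N * w + 2 * N) * (6 * N * w + 6 * N * y + N * (3 * mu)) := by
    nlinarith [hv]
  rw [h3mu, hkw] at hv4
  have hv5 : N * w * w + 2 ≤ (2 * N + 4) * w := by
    have h5 : (4 * (N * N)) * (3 * ((N + 2) * (w * w))) ≤ (4 * (N * N)) * ((w + 1) * (3 * w + 3 * y + (1 + 2 * N * w))) := by
      calc (4 * (N * N)) * (3 * ((N + 2) * (w * w))) = (N + 2) * (4 * (N * N) * (w * w)) * 3 := by ring
        _ ≤ _ := hv4
        _ = (4 * (N * N)) * ((w + 1) * (3 * w + 3 * y + (1 + 2 * N * w))) := by ring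
    have h6 := Nat.le_of_mul_le_mul_left h5 (by positivity)
    have h6' : 3 * (((N : ℤ) + 2) * (w * w)) ≤ (w + 1) * (3 * w + 3 * y + (1 + 2 * N * w)) := by exact_mod_cast h6
    have h7 : (y : ℤ) = w - 1 := by linarith
    rw [h7] at h6'
    have h8 : (N : ℤ) * w * w + 2 ≤ (2 * N + 4) * w := by linarith
    exact_mod_cast h8
  have hw3 : w ≤ 3 := by
    by_contra hcon
    push Not at hcon
    have ha : N * w * 4 ≤ N * w * w := Nat.mul_le_mul_left _ hcon
    have hb : 2 * w ≤ N * w := Nat.mul_le_mul_right _ hN2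
    have hc : (2 * N + 4) * w = 2 * (N * w) + 4 * w := by ring
    rw [hc] at hv5
    clear hsq hv hv4 hv1 hv2
    omega
  have hw0 : w ≠ 0 := by omega
  interval_cases w
  · exact absurd rfl hw0
  · -- w = 1
    exfalso
    have hy0 : y = 0 := by omega
    subst hy0
    rcases hsq with ⟨t, ht⟩ | hlk
    · obtain ⟨q, hq⟩ : ∃ q, k = 3 * q := ⟨k / 3, by omega⟩
      have hmuq : mu = 2 * q := by omega
      rw [hq, hmuq] at ht
      have h5 : t * t + 1 = (2 * q + 1) * (2 * q + 1) := by
        have : (t : ℤ) * t + 1 = (2 * q + 1) * (2 * q + 1) := by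
          push_cast at ht
          linear_combination ht
        exact_mod_cast this
      have := ntf_sq1 t q h5
      omega
    · omega
  · -- w = 2
    have hy1 : y = 1 := by omega
    subst hy1
    rcases hsq with ⟨t, ht⟩ | hlk
    · have h5 : (k : ℤ) = 1 + 4 * N := by rw [hkw]; push_cast; ring
      have h6 : (3 : ℤ) * mu = 2 * k := by exact_mod_cast h3mu
      have h7 : 36 * ((t : ℤ) * t) = k * k + 54 * k + 9 := by
        push_cast at ht
        have hNk : (N : ℤ) * 4 = k - 1 := by linarith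
        have hsix : 6 * ((2 : ℤ) * N * 1 - mu) = - (k + 3) := by linarith
        have : 36 * ((t : ℤ) ^ 2) = (6 * ((2 : ℤ) * N * 1 - mu)) ^ 2 + 36 * (4 * ((k : ℤ) - mu)) := by
          rw [ht]; ring
        rw [hsix] at this
        linear_combination this - 48 * h6
      have h8 : 36 * (t * t) = k * k + 54 * k + 9 := by exact_mod_cast h7
      rcases ntf_pow hkJ hJ (ntf_sq2 k t h8) with hk' | hk' | hk' | hk'
      · clear hv hv4 hv1 hv2
        refine ⟨hk', by omega, by omega⟩
      · rw [hk'] at h8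
        exact (ntf_nosq t 0 (Or.inl (by omega))).elim
      · rw [hk'] at h8
        exact (ntf_nosq t 0 (Or.inr (Or.inl (by omega)))).elim
      · rw [hk'] at h8
        exact (ntf_nosq t 0 (Or.inr (Or.inr (by omega)))).elim
    · omega
  · -- w = 3
    exfalso
    have hN3 : N ≤ 3 := by omega
    have hkk : k = 13 ∨ k = 19 := by
      interval_cases N <;> omega
    have hJ3 : J ≤ 2 := by
      by_contra hcon
      push Not at hcon
      have : 3 ^ 3 ≤ 3 ^ J := Nat.pow_le_pow_right (by norm_num) hcon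
      rw [← hkJ] at this
      omega
    have : J = 2 := by omega
    subst this
    omega

end Cfsg.Agent.Lib.FR
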