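import Mathlib

/-! S2207, piece NTS: abstract counting lemma (linear space of fixed points of involutions). -/

set_option autoImplicit false
set_option maxHeartbeats 1000000

namespace Cfsg.Agent.Lib.FRNTS

open MulAction

section
variable {M F : Type*} [Group M] [Finite M] [Finite F] [MulAction M F]

theorem odd_sq {C : Subgroup M} {κ : ℕ} (hodd : Odd κ) {y : F} (hκ : Nat.card ↥(C ⊓ stabilizer M y) = κ)
    {c : M} (hc : c ∈ C) (hy : c • y = y) (h : c * c = 1) : c = 1 := by
  have hm : c ∈ C ⊓ stabilizer M y := ⟨hc, hy⟩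
  have h1 : (⟨c, hm⟩ : ↥(C ⊓ stabilizer M y)) ^ κ = 1 := by rw [← hκ]; exact pow_card_eq_one'
  have h2 : c ^ κ = 1 := congrArg Subtype.val h1
  obtain ⟨j, rfl⟩ := hodd
  rw [pow_add, pow_mul, pow_two, h, one_pow, one_mul, pow_one] at h2
  exact h2

theorem odd_root {C : Subgroup M} {κ : ℕ} (hodd : Odd κ) {y : F} (hκ : Nat.card ↥(C ⊓ stabilizer M y) = κ)
    {c : M} (hc : c ∈ C) (hy : c • y = y) : ∃ w ∈ C, w • y = y ∧ w * w = c := by
  have hm : c ∈ C ⊓ stabilizer M y := ⟨hc, hy⟩
  have h1 : (⟨c, hm⟩ : ↥(C ⊓ stabilizer M y)) ^ κ = 1 := by rw [← hκ]; exact pow_card_eq_one'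
  have h2 : c ^ κ = 1 := congrArg Subtype.val h1
  obtain ⟨j, hj⟩ := hodd
  have hw : c ^ (j + 1) ∈ C ⊓ stabilizer M y := Subgroup.pow_mem _ hm _
  refine ⟨c ^ (j + 1), hw.1, hw.2, ?_⟩
  rw [← pow_add, show j + 1 + (j + 1) = κ + 1 by omega, pow_add, h2, one_mul, pow_one]

theorem nts_abs (C : Subgroup M) (J : Set M) (κ : ℕ)
    (h1 : ∀ c ∈ C, ∀ y y' : F, y ≠ y' → c • y = y → c • y' = y' → c = 1)
    (htr : ∀ y y' : F, ∃ c ∈ C, c • y = y')
    (hκ : ∀ y : F, Nat.card ↥(C ⊓ stabilizer M y) = κ) (hodd : Odd κ) (hκ1 : 1 < κ)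
    (hJ1 : ∀ z ∈ J, z * z = 1) (hJm : ∀ z ∈ J, ∃ w : F, z • w ≠ w)
    (hJ2 : ∀ z ∈ J, ∀ z' ∈ J, z * z' ∈ C)
    (hJ3 : ∀ z ∈ J, ∀ c ∈ C, c * z * c⁻¹ ∈ J)
    (hJf : ∀ z ∈ J, ∃ y : F, z • y = y)
    (hJy : ∀ y : F, ∀ z ∈ J, z • y = y → ∀ c ∈ C, c • y = y → z * c ∈ J)
    (hJe : ∀ y : F, ∃ z ∈ J, z • y = y)
    (hcase : (∀ z ∈ J, ∀ y y' : F, z • y = y → z • y' = y' → y = y') ∨
      (∀ y y' : F, y ≠ y' → ∃ z ∈ J, z • y = y ∧ z • y' = y'))
    (h2 : ∃ y y' : F, y ≠ y') :
    ∃ om, 2 ≤ om ∧ Nat.card F = om ^ 2 ∧ κ = om + 1 ∧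
      (∀ y y' : F, y ≠ y' → ∃ z ∈ J, z • y = y ∧ z • y' = y') := by
  classical
  cases nonempty_fintype M
  cases nonempty_fintype F
  obtain ⟨a, a', haa'⟩ := h2
  have hinv : ∀ z ∈ J, z⁻¹ = z := fun z hz => inv_eq_of_mul_eq_one_left (hJ1 z hz)
  -- inversion
  have hI : ∀ y : F, ∀ z ∈ J, z • y = y → ∀ c ∈ C, c • y = y → z * c * z = c⁻¹ := by
    intro y z hz hy c hc hcy
    have := hJ1 _ (hJy y z hz hy c hc hcy)
    rw [← mul_assoc] at this
    exact eq_inv_of_mul_eq_one_left this
  -- the involutions fixing `y`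
  let Jy : F → Finset M := fun y => Finset.univ.filter (fun z => z ∈ J ∧ z • y = y)
  have hJcard : ∀ y, (Jy y).card = κ := by
    intro y
    obtain ⟨z0, hz0, hz0y⟩ := hJe y
    rw [← hκ y, Nat.card_eq_fintype_card, ← Fintype.card_coe]
    refine Fintype.card_congr
      { toFun := fun z => ⟨z0 * z.1, ?_, ?_⟩
        invFun := fun c => ⟨z0 * c.1, ?_⟩
        left_inv := ?_
        right_inv := ?_ }
    · have := z.2
      simp only [Jy, Finset.mem_filter, Finset.mem_univ, true_and] at this
      exact hJ2 _ hz0 _ this.1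
    · have := z.2
      simp only [Jy, Finset.mem_filter, Finset.mem_univ, true_and] at this
      show (z0 * z.1) • y = y
      rw [mul_smul, this.2, hz0y]
    · simp only [Jy, Finset.mem_filter, Finset.mem_univ, true_and]
      refine ⟨hJy y z0 hz0 hz0y _ c.2.1 c.2.2, ?_⟩
      have := c.2.2
      rw [mul_smul]
      have h3 : (c : M) • y = y := this
      rw [h3, hz0y]
    · intro z; apply Subtype.ext; show z0 * (z0 * z.1) = z.1; rw [← mul_assoc, hJ1 _ hz0, one_mul]
    · intro z; apply Subtype.ext; show z0 * (z0 * z.1) = z.1; rw [← mul_assoc, hJ1 _ hz0, one_mul]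
  rcases hcase with hA | hB
  · -- case A: contradiction
    exfalso
    obtain ⟨z0, hz0, hz0a⟩ := hJe a
    -- `|J| = |F| κ`
    have hJall : (Finset.univ.filter (fun z => z ∈ J)).card = Fintype.card F * κ := by
      have : Finset.univ.filter (fun z => z ∈ J) = Finset.univ.biUnion Jy := by
        ext z
        simp only [Jy, Finset.mem_filter, Finset.mem_univ, true_and, Finset.mem_biUnion]
        constructor
        · intro hz
          obtain ⟨y, hy⟩ := hJf z hz
          exact ⟨y, hz, hy⟩
        · rintro ⟨y, hz, _⟩; exact hz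
      rw [this, Finset.card_biUnion]
      · rw [Finset.sum_congr rfl (fun y _ => hJcard y)]; simp
      · intro y _ y' _ hyy'
        rw [Function.onFun, Finset.disjoint_left]
        intro z hz hz'
        simp only [Jy, Finset.mem_filter, Finset.mem_univ, true_and] at hz hz'
        exact hyy' (hA z hz.1 y y' hz.2 hz'.2)
    have hCall : (Finset.univ.filter (fun c => c ∈ C)).card = Fintype.card F * κ := by
      have hfib := Finset.card_eq_sum_card_fiberwise (f := fun c : M => c • a)
        (s := Finset.univ.filter (fun c => c ∈ C)) (t := (Finset.univ : Finset F)) (by intro x _; simp)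
      rw [hfib]
      have : ∀ y ∈ (Finset.univ : Finset F),
          (Finset.filter (fun c : M => c • a = y) (Finset.univ.filter (fun c => c ∈ C))).card = κ := by
        intro y _
        obtain ⟨c0, hc0, hc0y⟩ := htr a y
        rw [← hκ a, Nat.card_eq_fintype_card, ← Fintype.card_coe]
        refine Fintype.card_congr
          { toFun := fun z => ⟨c0⁻¹ * z.1, ?_, ?_⟩
            invFun := fun c => ⟨c0 * c.1, ?_⟩
            left_inv := ?_
            right_inv := ?_ }
        · have := z.2
          simp only [Finset.mem_filter, Finset.mem_univ, true_and] at this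
          exact C.mul_mem (C.inv_mem hc0) this.1
        · have := z.2
          simp only [Finset.mem_filter, Finset.mem_univ, true_and] at this
          show (c0⁻¹ * z.1) • a = a
          rw [mul_smul, this.2, inv_smul_eq_iff, hc0y]
        · simp only [Finset.mem_filter, Finset.mem_univ, true_and]
          refine ⟨C.mul_mem hc0 c.2.1, ?_⟩
          have h3 : (c : M) • a = a := c.2.2
          rw [mul_smul, h3, hc0y]
        · intro z; apply Subtype.ext; show c0 * (c0⁻¹ * z.1) = z.1; group
        · intro z; apply Subtype.ext; show c0⁻¹ * (c0 * z.1) = z.1; group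
      rw [Finset.sum_congr rfl this]; simp
    have himg : (Finset.univ.filter (fun z => z ∈ J)).image (fun z => z0 * z) = Finset.univ.filter (fun c => c ∈ C) := by
      apply Finset.eq_of_subset_of_card_le
      · intro c hc
        simp only [Finset.mem_image, Finset.mem_filter, Finset.mem_univ, true_and] at hc ⊢
        obtain ⟨z, hz, rfl⟩ := hc
        exact hJ2 _ hz0 _ hz
      · rw [Finset.card_image_of_injective _ (mul_right_injective z0), hJall, hCall]
    have hall : ∀ c ∈ C, z0 * c ∈ J := by
      intro c hc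
      have : c ∈ (Finset.univ.filter (fun z => z ∈ J)).image (fun z => z0 * z) := by
        rw [himg]; simp [hc]
      simp only [Finset.mem_image, Finset.mem_filter, Finset.mem_univ, true_and] at this
      obtain ⟨z, hz, rfl⟩ := this
      rw [← mul_assoc, hJ1 _ hz0, one_mul]; exact hz
    have hinvC : ∀ c ∈ C, z0 * c * z0 = c⁻¹ := by
      intro c hc
      have := hJ1 _ (hall c hc)
      rw [← mul_assoc] at this
      exact eq_inv_of_mul_eq_one_left this
    have hcomm : ∀ c ∈ C, ∀ d ∈ C, c * d = d * c := by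
      intro c hc d hd
      have e1 := hinvC _ (C.mul_mem hc hd)
      have e2 := hinvC c hc
      have e3 := hinvC d hd
      have : z0 * (c * d) * z0 = (z0 * c * z0) * (z0 * d * z0) := by
        rw [show (z0 * c * z0) * (z0 * d * z0) = z0 * c * (z0 * z0) * d * z0 by group, hJ1 _ hz0]; group
      rw [e1, e2, e3, mul_inv_rev] at this
      have h4 := congrArg (·⁻¹) this
      simpa using h4
    -- a nontrivial element of the stabilizer
    have : ∃ x : ↥(C ⊓ stabilizer M a), x ≠ 1 := by
      by_contra hcon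
      push_neg at hcon
      have : Nat.card ↥(C ⊓ stabilizer M a) ≤ 1 := by
        rw [Finite.card_le_one_iff_subsingleton]
        exact ⟨fun x y => by rw [hcon x, hcon y]⟩
      rw [hκ a] at this; omega
    obtain ⟨x, hx⟩ := this
    apply hx
    apply Subtype.ext
    obtain ⟨c, hc, hca⟩ := htr a a'
    have hxa : (x : M) • a = a := x.2.2
    refine h1 x x.2.1 a a' haa' hxa ?_
    have h5 := hcomm c hc x x.2.1
    calc (x : M) • a' = ((x : M) * c) • a := by rw [mul_smul, hca]
      _ = (c * x) • a := by rw [h5]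
      _ = a' := by rw [mul_smul, hxa, hca]
  · -- case B
    have huniq : ∀ y y' : F, y ≠ y' → ∀ z ∈ J, ∀ z' ∈ J, z • y = y → z • y' = y' → z' • y = y → z' • y' = y' → z = z' := by
      intro y y' hyy' z hz z' hz' e1 e2 e3 e4
      have : z * z' = 1 := h1 _ (hJ2 z hz z' hz') y y' hyy' (by rw [mul_smul, e3, e1]) (by rw [mul_smul, e4, e2])
      rw [← hinv z' hz'] 
      exact eq_inv_of_mul_eq_one_left this
    -- all conjugate
    let fs : M → Finset F := fun z => Finset.univ.filter (fun y => z • y = y)
    have hconj : ∀ z ∈ J, ∀ z' ∈ J, (fs z).card = (fs z').card := by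
      intro z hz z' hz'
      obtain ⟨y, hy⟩ := hJf z hz
      obtain ⟨y', hy'⟩ := hJf z' hz'
      obtain ⟨c, hc, hcy⟩ := htr y y'
      have hz1 := hJ3 z hz c hc
      set z1 := c * z * c⁻¹ with hz1d
      have hz1y : z1 • y' = y' := by
        rw [hz1d, ← hcy, mul_smul, mul_smul, inv_smul_smul, hy]
      obtain ⟨w, hw, hwy, hww⟩ := odd_root hodd (hκ y') (hJ2 z1 hz1 z' hz') (by rw [mul_smul, hy', hz1y])
      have e1 := hI y' z1 hz1 hz1y w hw hwy
      have e2 : z' = w⁻¹ * z1 * w := by
        rw [← e1, mul_assoc (z1 * w) z1 z1, hJ1 _ hz1, mul_one, mul_assoc, hww, ← mul_assoc, hJ1 _ hz1, one_mul]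
      have e3 : z' = (w⁻¹ * c) * z * (w⁻¹ * c)⁻¹ := by rw [e2, hz1d]; group
      refine Finset.card_bij (fun y _ => (w⁻¹ * c) • y) ?_ ?_ ?_
      · intro y hy
        simp only [fs, Finset.mem_filter, Finset.mem_univ, true_and] at hy ⊢
        rw [e3, mul_smul, mul_smul, inv_smul_smul, hy]
      · intro y _ y'' _ h; exact MulAction.injective _ h
      · intro y hy
        simp only [fs, Finset.mem_filter, Finset.mem_univ, true_and] at hy
        refine ⟨(w⁻¹ * c)⁻¹ • y, ?_, smul_inv_smul _ _⟩
        simp only [fs, Finset.mem_filter, Finset.mem_univ, true_and]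
        rw [e3, mul_smul, mul_smul] at hy
        conv_rhs => rw [← hy]
        rw [inv_smul_smul]
    obtain ⟨z, hz, hza, hza'⟩ := hB a a' haa'
    set om := (fs z).card with hom
    have hall : ∀ z' ∈ J, (fs z').card = om := fun z' hz' => hconj z' hz' z hz
    have hom2 : 2 ≤ om := by
      have : ({a, a'} : Finset F) ⊆ fs z := by
        intro y hy
        simp only [Finset.mem_insert, Finset.mem_singleton] at hy
        simp only [fs, Finset.mem_filter, Finset.mem_univ, true_and]
        rcases hy with rfl | rfl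
        · exact hza
        · exact hza'
      calc 2 = ({a, a'} : Finset F).card := (Finset.card_pair haa').symm
        _ ≤ om := Finset.card_le_card this
    -- the joining involution
    have hex : ∀ y y' : F, ∃ z : M, y ≠ y' → (z ∈ J ∧ z • y = y ∧ z • y' = y') := by
      intro y y'
      by_cases h : y = y'
      · exact ⟨1, fun h' => absurd h h'⟩
      · obtain ⟨z, hz⟩ := hB y y' h
        exact ⟨z, fun _ => hz⟩
    choose φ hφ using hex
    have hn1 : Fintype.card F - 1 = κ * (om - 1) := by
      have hfib := Finset.card_eq_sum_card_fiberwise (f := fun y : F => φ a y)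
        (s := Finset.univ.erase a) (t := Jy a) (by
          intro y hy
          have hy' : a ≠ y := by
            have := Finset.mem_coe.mp hy
            simp only [Finset.mem_erase, Finset.mem_univ, and_true] at this
            exact fun h => this h.symm
          simp only [Jy, Finset.coe_filter, Finset.mem_univ, true_and, Set.mem_ofPred_eq]
          exact ⟨(hφ a y hy').1, (hφ a y hy').2.1⟩)
      rw [Finset.card_erase_of_mem (Finset.mem_univ _), Finset.card_univ] at hfib
      rw [hfib]
      have : ∀ z' ∈ Jy a, (Finset.filter (fun y : F => φ a y = z') (Finset.univ.erase a)).card = om - 1 := by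
        intro z' hz'
        simp only [Jy, Finset.mem_filter, Finset.mem_univ, true_and] at hz'
        have : Finset.filter (fun y : F => φ a y = z') (Finset.univ.erase a) = (fs z').erase a := by
          ext y
          simp only [fs, Finset.mem_filter, Finset.mem_univ, true_and, Finset.mem_erase, and_true]
          constructor
          · rintro ⟨h3, h4⟩
            refine ⟨h3, ?_⟩
            rw [← h4]; exact (hφ a y (fun h => h3 h.symm)).2.2
          · rintro ⟨h3, h4⟩
            refine ⟨h3, ?_⟩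
            obtain ⟨g1, g2, g3⟩ := hφ a y (fun h => h3 h.symm)
            exact huniq a y (fun h => h3 h.symm) _ g1 _ hz'.1 g2 g3 hz'.2 h4
        rw [this, Finset.card_erase_of_mem (by simp [fs, hz'.2]), hall z' hz'.1]
      rw [Finset.sum_congr rfl this, Finset.sum_const, hJcard a, smul_eq_mul]
    -- commuting involutions
    have hcom : ∀ z1 ∈ J, z * z1 = z1 * z → ∀ y : F, z • y = y → z1 • y = y → z1 = z := by
      intro z1 hz1 hc y h3 h4
      have e1 := hI y z hz h3 _ (hJ2 z hz z1 hz1) (by rw [mul_smul, h4, h3])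
      have e2 : z * (z * z1) * z = z * z1 := by rw [← mul_assoc, hJ1 _ hz, one_mul, hc]
      rw [e2] at e1
      have e3 : (z * z1) * (z * z1) = 1 := by nth_rewrite 1 [e1]; exact inv_mul_cancel _
      have e4 := odd_sq hodd (hκ y) (hJ2 z hz z1 hz1) (by rw [mul_smul, h4, h3]) e3
      have := eq_inv_of_mul_eq_one_right e4
      rw [hinv z hz] at this; exact this
    have hcomex : ∀ w : F, ∃ z1 ∈ J, z * z1 = z1 * z ∧ z1 • w = w := by
      intro w
      by_cases hw : z • w = w
      · exact ⟨z, hz, rfl, hw⟩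
      · obtain ⟨z1, hz1, h3, h4⟩ := hB w (z • w) (fun h => hw h.symm)
        refine ⟨z1, hz1, ?_, h3⟩
        have hzw : z • z • w = w := by rw [smul_smul, hJ1 _ hz, one_smul]
        have hz2 : z * z1 * z ∈ J := by
          have h7 : z * z1 * z = z1 * ((z1 * z) * (z1 * z)) := by
            rw [show z1 * ((z1 * z) * (z1 * z)) = (z1 * z1) * z * z1 * z by group, hJ1 _ hz1, one_mul]
          have h8 : z * z1 * z = (z * z1) * z1 * (z * z1)⁻¹ := by
            rw [mul_inv_rev, hinv z hz, hinv z1 hz1, mul_assoc z z1 z1, hJ1 _ hz1]; group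
          rw [h8]; exact hJ3 z1 hz1 _ (hJ2 z hz z1 hz1)
        have e1 : z * z1 * z = z1 := huniq w (z • w) (fun h => hw h.symm) _ hz2 _ hz1
          (by rw [mul_smul, mul_smul, h4, hzw]) (by rw [mul_smul, mul_smul, hzw, h3]) h3 h4
        have : z * z1 * z * z = z1 * z := congrArg (· * z) e1
        rw [mul_assoc (z * z1) z z, hJ1 _ hz, mul_one] at this
        exact this
    have hcomuniq : ∀ w : F, ∀ z1 ∈ J, ∀ z2 ∈ J, z * z1 = z1 * z → z * z2 = z2 * z → z1 • w = w → z2 • w = w → z1 = z2 := by
      intro w z1 hz1 z2 hz2 c1 c2 h3 h4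
      by_cases hw : z • w = w
      · rw [hcom z1 hz1 c1 w hw h3, hcom z2 hz2 c2 w hw h4]
      · exact huniq w (z • w) (fun h => hw h.symm) _ hz1 _ hz2 h3
          (by rw [← mul_smul, ← c1, mul_smul, h3]) h4 (by rw [← mul_smul, ← c2, mul_smul, h4])
    choose ψ hψ using hcomex
    let Cz : Finset M := Finset.univ.filter (fun z1 => z1 ∈ J ∧ z * z1 = z1 * z)
    have hn2 : Fintype.card F = Cz.card * om := by
      have hfib := Finset.card_eq_sum_card_fiberwise (f := ψ)
        (s := (Finset.univ : Finset F)) (t := Cz) (by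
          intro y _
          simp only [Cz, Finset.coe_filter, Finset.mem_univ, true_and, Set.mem_ofPred_eq]
          exact ⟨(hψ y).1, (hψ y).2.1⟩)
      rw [Finset.card_univ] at hfib
      rw [hfib]
      have : ∀ z' ∈ Cz, (Finset.filter (fun y : F => ψ y = z') Finset.univ).card = om := by
        intro z' hz'
        simp only [Cz, Finset.mem_filter, Finset.mem_univ, true_and] at hz'
        rw [← hall z' hz'.1]
        congr 1
        ext y
        simp only [fs, Finset.mem_filter, Finset.mem_univ, true_and]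
        constructor
        · intro h; rw [← h]; exact (hψ y).2.2
        · intro h; exact hcomuniq y _ (hψ y).1 _ hz'.1 (hψ y).2.1 hz'.2 (hψ y).2.2 h
      rw [Finset.sum_congr rfl this, Finset.sum_const, smul_eq_mul]
    have hn3 : Cz.card ≤ om := by
      refine Finset.card_le_card_of_injOn (fun z1 => (z * z1) • a) ?_ ?_
      · intro z1 hz1
        simp only [Cz, Finset.coe_filter, Finset.mem_univ, true_and, Set.mem_ofPred_eq] at hz1
        simp only [fs, Finset.coe_filter, Finset.mem_univ, true_and, Set.mem_ofPred_eq]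
        rw [← mul_smul, ← mul_assoc, hJ1 _ hz, one_mul]
        rw [hz1.2, mul_smul, hza]
      · intro z1 hz1 z2 hz2 h
        simp only [Cz, Finset.coe_filter, Finset.mem_univ, true_and, Set.mem_ofPred_eq] at hz1 hz2
        simp only [mul_smul] at h
        have h3 : z1 • a = z2 • a := MulAction.injective _ h
        have h4 : (z2 * z1) • a = a := by rw [mul_smul, h3, ← mul_smul, hJ1 _ hz2.1, one_smul]
        have e1 := hI a z hz hza _ (hJ2 z2 hz2.1 z1 hz1.1) h4
        have e2 : z * (z2 * z1) * z = z2 * z1 := by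
          rw [← mul_assoc, hz2.2, mul_assoc z2, hz1.2, ← mul_assoc, mul_assoc (z2 * z1), hJ1 _ hz, mul_one]
        rw [e2] at e1
        have e3 : (z2 * z1) * (z2 * z1) = 1 := by nth_rewrite 1 [e1]; exact inv_mul_cancel _
        have e4 := odd_sq hodd (hκ a) (hJ2 z2 hz2.1 z1 hz1.1) h4 e3
        have := eq_inv_of_mul_eq_one_right e4
        rw [hinv z2 hz2.1] at this; exact this
    obtain ⟨w, hw⟩ := hJm z hz
    have hn4 : om ≤ κ - 1 := by
      rw [← hJcard w, ← Finset.card_erase_of_mem (a := ψ w) (s := Jy w) (by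
        simp only [Jy, Finset.mem_filter, Finset.mem_univ, true_and]
        exact ⟨(hψ w).1, (hψ w).2.2⟩)]
      refine Finset.card_le_card_of_injOn (fun y => φ w y) ?_ ?_
      · intro y hy
        simp only [fs, Finset.coe_filter, Finset.mem_univ, true_and, Set.mem_ofPred_eq] at hy
        have hwy : w ≠ y := by rintro rfl; exact hw hy
        simp only [Jy, Finset.coe_erase, Finset.coe_filter, Finset.mem_univ, true_and, Set.mem_sdiff, Set.mem_ofPred_eq,
          Set.mem_singleton_iff]
        obtain ⟨g1, g2, g3⟩ := hφ w y hwy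
        refine ⟨⟨g1, g2⟩, ?_⟩
        intro heq
        have h5 := hcom _ (hψ w).1 (hψ w).2.1 y hy (by rw [← heq]; exact g3)
        apply hw
        rw [← h5]; exact (hψ w).2.2
      · intro y hy y' hy' heq
        simp only [fs, Finset.coe_filter, Finset.mem_univ, true_and, Set.mem_ofPred_eq] at hy hy'
        by_contra hne
        have hwy : w ≠ y := by rintro rfl; exact hw hy
        have hwy' : w ≠ y' := by rintro rfl; exact hw hy'
        obtain ⟨g1, g2, g3⟩ := hφ w y hwy
        obtain ⟨g1', g2', g3'⟩ := hφ w y' hwy'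
        have heq' : φ w y = φ w y' := heq
        rw [← heq'] at g3'
        have h6 := huniq y y' hne _ g1 _ hz g3 g3' hy hy'
        apply hw; rw [← h6]; exact g2
    have hpos : 1 ≤ Fintype.card F := Fintype.card_pos_iff.mpr ⟨a⟩
    have hF : Fintype.card F = κ * (om - 1) + 1 := by omega
    obtain ⟨o, ho⟩ : ∃ o, om = o + 2 := ⟨om - 2, by omega⟩
    obtain ⟨q, hq⟩ : ∃ q, κ = om + 1 + q := ⟨κ - om - 1, by omega⟩
    have e1 : Fintype.card F ≤ om * om := by rw [hn2]; exact Nat.mul_le_mul_right _ hn3
    have hq0 : q = 0 := by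
      rw [hF, hq, ho] at e1
      have e2 : (o + 2 + 1 + q) * (o + 2 - 1) + 1 ≤ (o + 2) * (o + 2) := e1
      rw [show o + 2 - 1 = o + 1 by omega] at e2
      nlinarith
    refine ⟨om, hom2, ?_, by omega, hB⟩
    rw [Nat.card_eq_fintype_card, hF, hq, hq0, ho]
    rw [show o + 2 - 1 = o + 1 by omega]
    ring
end

end Cfsg.Agent.Lib.FRNTS
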