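import Cfsg.Agent.Lib.FRa

/-! Pieces VAR, VAM of helper31's plan for S2207 (helper95) -/

set_option autoImplicit false
set_option linter.all false

namespace Cfsg.Agent.Lib.FR

open MulAction Subgroup

variable {G X : Type*} [Group G] [Finite G] [Finite X] [MulAction G X] {D : X → X → Prop} {K : X → Subgroup G}
  {k h l lam mu : ℕ}

open Classical in
theorem var_core [Fintype X] (R : Rk G X D K k h l lam mu) (cf : Finset X) :
    ∑ x : X, (∑ c ∈ cf, if D x c then 1 else 0) = cf.card * k ∧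
    ∑ x : X, (∑ c ∈ cf, if D x c then 1 else 0) ^ 2 =
      ∑ c ∈ cf, ∑ c' ∈ cf, (if c = c' then k else if D c c' then lam else mu) := by
  have hcard : ∀ (p : X → Prop) [DecidablePred p], ∑ x : X, (if p x then 1 else 0) = Nat.card {x // p x} := by
    intro p _
    rw [Nat.card_eq_fintype_card, Fintype.card_subtype, Finset.sum_boole, Nat.cast_id]
  constructor
  · rw [Finset.sum_comm]
    rw [Finset.sum_congr rfl (g := fun _ => k)]
    · rw [Finset.sum_const, smul_eq_mul]
    · intro c _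
      rw [hcard, ← R.cD c]
      exact Nat.card_congr (Equiv.subtypeEquivRight fun x => ⟨R.symm _ _, R.symm _ _⟩)
  · have h1 : ∀ x : X, (∑ c ∈ cf, if D x c then 1 else 0) ^ 2 =
        ∑ c ∈ cf, ∑ c' ∈ cf, (if D x c ∧ D x c' then 1 else 0) := by
      intro x
      rw [sq, Finset.sum_mul_sum]
      refine Finset.sum_congr rfl fun c _ => Finset.sum_congr rfl fun c' _ => ?_
      by_cases h1 : D x c <;> by_cases h2 : D x c' <;> simp [h1, h2]
    rw [Finset.sum_congr rfl (fun x _ => h1 x), Finset.sum_comm]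
    refine Finset.sum_congr rfl fun c _ => ?_
    rw [Finset.sum_comm]
    refine Finset.sum_congr rfl fun c' _ => ?_
    rw [hcard]
    by_cases hcc : c = c'
    · subst hcc
      rw [if_pos rfl, ← R.cD c]
      exact Nat.card_congr (Equiv.subtypeEquivRight fun x => ⟨fun h => R.symm _ _ h.1, fun h => ⟨R.symm _ _ h, R.symm _ _ h⟩⟩)
    · rw [if_neg hcc]
      by_cases hD : D c c'
      · rw [if_pos hD, ← R.clam c c' hD]
        exact Nat.card_congr (Equiv.subtypeEquivRight fun x => ⟨fun h => ⟨R.symm _ _ h.1, R.symm _ _ h.2⟩,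
          fun h => ⟨R.symm _ _ h.1, R.symm _ _ h.2⟩⟩)
      · rw [if_neg hD, ← R.cmu c c' hcc hD]
        exact Nat.card_congr (Equiv.subtypeEquivRight fun x => ⟨fun h => ⟨R.symm _ _ h.1, R.symm _ _ h.2⟩,
          fun h => ⟨R.symm _ _ h.1, R.symm _ _ h.2⟩⟩)

theorem var (R : Rk G X D K k h l lam mu) (C : Set X) (hC : ∀ x ∈ C, ∀ y ∈ C, ¬ D x y) (hne : C.Nonempty) :
    Nat.card C * k ^ 2 ≤ (1 + k + l - Nat.card C) * (k + (Nat.card C - 1) * mu) := by
  classical
  haveI := Fintype.ofFinite X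
  set cf := C.toFinset with hcf
  have hmem : ∀ x, x ∈ cf ↔ x ∈ C := fun x => Set.mem_toFinset
  have hn : Nat.card C = cf.card := by rw [Nat.card_coe_set_eq, Set.ncard_eq_toFinset_card']
  obtain ⟨h1, h2⟩ := var_core R cf
  have h3 : ∀ c ∈ cf, ∑ c' ∈ cf, (if c = c' then k else if D c c' then lam else mu) = k + (cf.card - 1) * mu := by
    intro c hc
    rw [← Finset.add_sum_erase _ _ hc, if_pos rfl]
    congr 1
    rw [Finset.sum_congr rfl (g := fun _ => mu)]
    · rw [Finset.sum_const, Finset.card_erase_of_mem hc, smul_eq_mul]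
    · intro c' hc'
      rw [Finset.mem_erase] at hc'
      rw [if_neg (Ne.symm hc'.1), if_neg (hC c ((hmem c).1 hc) c' ((hmem c').1 hc'.2))]
  rw [Finset.sum_congr rfl h3, Finset.sum_const, smul_eq_mul] at h2
  have h0 : ∀ x ∈ cf, (∑ c ∈ cf, if D x c then 1 else 0) = 0 := by
    intro x hx
    apply Finset.sum_eq_zero
    intro c hc
    rw [if_neg (hC x ((hmem x).1 hx) c ((hmem c).1 hc))]
  have h4 : ∑ x ∈ cfᶜ, (∑ c ∈ cf, if D x c then 1 else 0) = cf.card * k := by
    rw [← h1, ← Finset.sum_compl_add_sum cf, Finset.sum_eq_zero h0, add_zero]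
  have h5 : ∑ x ∈ cfᶜ, (∑ c ∈ cf, if D x c then 1 else 0) ^ 2 = cf.card * (k + (cf.card - 1) * mu) := by
    rw [← h2, ← Finset.sum_compl_add_sum cf, Finset.sum_eq_zero (s := cf), add_zero]
    intro x hx
    rw [h0 x hx]; rfl
  have h6 := sq_sum_le_card_mul_sum_sq (s := cfᶜ) (f := fun x => ∑ c ∈ cf, if D x c then 1 else 0)
  rw [h4, h5, Finset.card_compl, ← Nat.card_eq_fintype_card, R.cX, Nat.cast_id] at h6
  rw [hn]
  have hpos : 0 < cf.card := by
    rw [Finset.card_pos]
    obtain ⟨x, hx⟩ := hne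
    exact ⟨x, (hmem x).2 hx⟩
  apply Nat.le_of_mul_le_mul_left _ hpos
  calc cf.card * (cf.card * k ^ 2) = (cf.card * k) ^ 2 := by ring
    _ ≤ _ := h6
    _ = _ := by ring

theorem vam (R : Rk G X D K k h l lam mu) (C : Set X) (hC : ∀ x ∈ C, ∃! y, y ∈ C ∧ D x y) (hne : C.Nonempty) :
    Nat.card C * (k - 1) ^ 2 ≤ (1 + k + l - Nat.card C) * (k - 1 + lam + (Nat.card C - 2) * mu) := by
  classical
  haveI := Fintype.ofFinite X
  set cf := C.toFinset with hcf
  have hmem : ∀ x, x ∈ cf ↔ x ∈ C := fun x => Set.mem_toFinset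
  have hn : Nat.card C = cf.card := by rw [Nat.card_coe_set_eq, Set.ncard_eq_toFinset_card']
  obtain ⟨h1, h2⟩ := var_core R cf
  have hk1 : 1 ≤ k := by have := R.k2; omega
  have h3 : ∀ c ∈ cf, ∑ c' ∈ cf, (if c = c' then k else if D c c' then lam else mu) = k + (lam + (cf.card - 2) * mu) := by
    intro c hc
    rw [← Finset.add_sum_erase _ _ hc, if_pos rfl]
    congr 1
    obtain ⟨y, ⟨hy, hDy⟩, huniq⟩ := hC c ((hmem c).1 hc)
    have hyc : y ≠ c := by rintro rfl; exact R.irr _ hDy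
    have hye : y ∈ cf.erase c := Finset.mem_erase.2 ⟨hyc, (hmem y).2 hy⟩
    rw [← Finset.add_sum_erase _ _ hye, if_neg (Ne.symm hyc), if_pos hDy]
    congr 1
    rw [Finset.sum_congr rfl (g := fun _ => mu)]
    · rw [Finset.sum_const, Finset.card_erase_of_mem hye, Finset.card_erase_of_mem hc, smul_eq_mul]
      rfl
    · intro c' hc'
      rw [Finset.mem_erase, Finset.mem_erase] at hc'
      rw [if_neg (Ne.symm hc'.2.1), if_neg]
      intro hD
      exact hc'.1 (huniq c' ⟨(hmem c').1 hc'.2.2, hD⟩)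
  rw [Finset.sum_congr rfl h3, Finset.sum_const, smul_eq_mul] at h2
  have h0 : ∀ x ∈ cf, (∑ c ∈ cf, if D x c then 1 else 0) = 1 := by
    intro x hx
    obtain ⟨y, ⟨hy, hDy⟩, huniq⟩ := hC x ((hmem x).1 hx)
    rw [Finset.sum_eq_single y]
    · rw [if_pos hDy]
    · intro b hb hby
      rw [if_neg]
      intro hD
      exact hby (huniq b ⟨(hmem b).1 hb, hD⟩)
    · intro hy'
      exact absurd ((hmem y).2 hy) hy'
  have h4 : ∑ x ∈ cfᶜ, (∑ c ∈ cf, if D x c then 1 else 0) = cf.card * (k - 1) := by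
    have e := h1
    rw [← Finset.sum_compl_add_sum cf, Finset.sum_congr rfl h0, Finset.sum_const, smul_eq_mul, mul_one] at e
    obtain ⟨k', rfl⟩ : ∃ k', k = k' + 1 := ⟨k - 1, by omega⟩
    rw [Nat.add_sub_cancel]
    rw [Nat.mul_succ] at e
    omega
  have h5 : ∑ x ∈ cfᶜ, (∑ c ∈ cf, if D x c then 1 else 0) ^ 2 = cf.card * (k - 1 + lam + (cf.card - 2) * mu) := by
    have e := h2
    rw [← Finset.sum_compl_add_sum cf, Finset.sum_congr rfl (fun x hx => by rw [h0 x hx] : ∀ x ∈ cf,
      (∑ c ∈ cf, if D x c then 1 else 0) ^ 2 = 1 ^ 2), Finset.sum_const, smul_eq_mul, one_pow, mul_one] at e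
    obtain ⟨k', rfl⟩ : ∃ k', k = k' + 1 := ⟨k - 1, by omega⟩
    rw [Nat.add_sub_cancel]
    have e2 : cf.card * (k' + 1 + (lam + (cf.card - 2) * mu)) = cf.card * (k' + lam + (cf.card - 2) * mu) + cf.card := by ring
    rw [e2] at e
    exact Nat.add_right_cancel e
  have h6 := sq_sum_le_card_mul_sum_sq (s := cfᶜ) (f := fun x => ∑ c ∈ cf, if D x c then 1 else 0)
  rw [h4, h5, Finset.card_compl, ← Nat.card_eq_fintype_card, R.cX, Nat.cast_id] at h6
  rw [hn]
  have hpos : 0 < cf.card := by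
    rw [Finset.card_pos]
    obtain ⟨x, hx⟩ := hne
    exact ⟨x, (hmem x).2 hx⟩
  apply Nat.le_of_mul_le_mul_left _ hpos
  calc cf.card * (cf.card * (k - 1) ^ 2) = (cf.card * (k - 1)) ^ 2 := by ring
    _ ≤ _ := h6
    _ = _ := by ring

/-- a group acting freely on a finite set -/
theorem card_dvd_of_free_on {S : Subgroup G} {Y : Set X} (hY : ∀ g ∈ S, ∀ y ∈ Y, g • y ∈ Y)
    (hfree : ∀ g ∈ S, ∀ y ∈ Y, g • y = y → g = 1) : Nat.card S ∣ Nat.card Y := by
  classical
  let Ys : SubMulAction S X := ⟨Y, fun g y hy => hY g g.2 y hy⟩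
  have e := MulAction.selfEquivSigmaOrbitsQuotientStabilizer S Ys
  haveI : Finite Ys := (inferInstance : Finite Y)
  haveI : Finite (Quotient (MulAction.orbitRel S Ys)) := Quotient.finite _
  haveI := Fintype.ofFinite (Quotient (MulAction.orbitRel S Ys))
  have hst : ∀ y : Ys, MulAction.stabilizer S y = ⊥ := by
    intro y
    rw [eq_bot_iff]
    intro g hg
    rw [mem_bot]
    have h1 : g • y = y := hg
    have h2 : (g : G) • (y : X) = y := congrArg Subtype.val h1
    exact Subtype.ext (hfree g g.2 y y.2 h2)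
  have h1 : Nat.card Y = Nat.card Ys := rfl
  rw [h1, Nat.card_congr e, Nat.card_sigma, Finset.sum_congr rfl (g := fun _ => Nat.card S)]
  · rw [Finset.sum_const, smul_eq_mul]
    exact dvd_mul_left _ _
  · intro ω _
    rw [hst, ← Subgroup.index, Subgroup.index_bot]

/-- divisibilities -/
theorem hl (R : Rk G X D K k h l lam mu) :
    h ∣ lam ∧ (∀ a c, a ≠ c → ¬ D a c → l * Nat.card ↥(stabilizer G a ⊓ stabilizer G c) = k * h) := by
  classical
  constructor
  · have hX : Nonempty X := by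
      have h1 := R.cX
      have h2 : 0 < Nat.card X := by omega
      exact (Nat.card_pos_iff.1 h2).1
    obtain ⟨a⟩ := hX
    have hne : Nonempty {b // D a b} := by
      have h1 := R.cD a
      have h2 : 0 < Nat.card {b // D a b} := by have := R.k2; omega
      exact (Nat.card_pos_iff.1 h2).1
    obtain ⟨⟨b, hab⟩⟩ := hne
    rw [← R.Hcard a b hab, ← R.clam a b hab]
    refine card_dvd_of_free_on (S := stabilizer G a ⊓ stabilizer G b) (Y := {c | D a c ∧ D b c}) ?_ ?_
    · rintro g ⟨hga, hgb⟩ y ⟨hy1, hy2⟩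
      replace hga : g • a = a := hga
      replace hgb : g • b = b := hgb
      have e1 := R.inv g _ _ hy1
      have e2 := R.inv g _ _ hy2
      rw [hga] at e1
      rw [hgb] at e2
      exact ⟨e1, e2⟩
    · rintro g ⟨hga, hgb⟩ y ⟨hy1, hy2⟩ hgy
      replace hga : g • a = a := hga
      replace hgb : g • b = b := hgb
      refine R.Hfree a b y g hab hy1 ?_ hga hgb hgy
      rintro rfl
      exact R.irr _ hy2
  · intro a c hac hN
    have e := MulAction.orbitProdStabilizerEquivGroup (stabilizer G a) c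
    have h1 := Nat.card_congr e
    rw [Nat.card_prod, R.card a] at h1
    have h2 : MulAction.orbit (stabilizer G a) c = {c' | c' ≠ a ∧ ¬ D a c'} := by
      ext c'
      rw [MulAction.mem_orbit_iff]
      constructor
      · rintro ⟨g, rfl⟩
        have hg : (g : G) • a = a := g.2
        refine ⟨fun h3 => hac ?_, fun h3 => hN ?_⟩
        · have h4 : (g : G) • c = (g : G) • a := by rw [hg]; exact h3
          exact (MulAction.injective (g : G) h4).symm
        · have h4 : D a ((g : G) • c) := h3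
          have h5 := R.inv (g : G)⁻¹ _ _ h4
          rw [inv_smul_smul] at h5
          have h6 : (g : G)⁻¹ • a = a := by rw [inv_smul_eq_iff, hg]
          rwa [h6] at h5
      · rintro ⟨h3, h4⟩
        obtain ⟨g, hg1, hg2⟩ := R.trN a c a c' hac hN (Ne.symm h3) h4
        exact ⟨⟨g, hg1⟩, hg2⟩
    have h3 : Nat.card (MulAction.stabilizer (stabilizer G a) c) = Nat.card ↥(stabilizer G a ⊓ stabilizer G c) := by
      have h4 : MulAction.stabilizer (stabilizer G a) c = (stabilizer G a ⊓ stabilizer G c).subgroupOf (stabilizer G a) := by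
        ext g
        rw [mem_subgroupOf, mem_inf, mem_stabilizer_iff, mem_stabilizer_iff]
        exact ⟨fun h5 => ⟨g.2, h5⟩, fun h5 => h5.2⟩
      rw [h4]
      exact Nat.card_congr (subgroupOfEquivOfLe inf_le_left).toEquiv
    rw [h2, h3] at h1
    have h4 : Nat.card {c' | c' ≠ a ∧ ¬ D a c'} = l := R.cN a
    rw [h4] at h1
    exact h1

end Cfsg.Agent.Lib.FR
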