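import Cfsg.Agent.Lib.FRa
import Cfsg.Agent.Lib.FR_INV
import Cfsg.Agent.Lib.FR_KC
import Cfsg.Agent.Lib.FR_VAR
import Cfsg.Agent.Lib.FR_NTSa

/-! S2207, piece NTS (helper14). -/

set_option autoImplicit false
set_option maxHeartbeats 1000000
set_option linter.all false

namespace Cfsg.Agent.Lib.FR

open MulAction Subgroup

variable {G X : Type*} [Group G] [Finite G] [Finite X] [MulAction G X] {D : X → X → Prop} {K : X → Subgroup G}
  {k h l lam mu : ℕ}

theorem NTS_Kmem (R : Rk G X D K k h l lam mu) (g : G) (a : X) (x : G) : g * x * g⁻¹ ∈ K (g • a) ↔ x ∈ K a := by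
  constructor
  · intro hx
    have := R.Kconj g⁻¹ (g • a) _ hx
    rw [inv_smul_smul] at this
    have e : g⁻¹ * (g * x * g⁻¹) * g⁻¹⁻¹ = x := by group
    rwa [e] at this
  · exact R.Kconj g a x

theorem NTS_norm (R : Rk G X D K k h l lam mu) (a c a' c' : X) (g : G) (h1 : g • a = a') (h2 : g • c = c') (x : G) :
    x ∈ K a ⊓ K c ↔ g * x * g⁻¹ ∈ K a' ⊓ K c' := by
  rw [← h1, ← h2, mem_inf, mem_inf, NTS_Kmem R, NTS_Kmem R]

theorem NTS_card (R : Rk G X D K k h l lam mu) {a c a' c' : X} (hac : a ≠ c) (hN : ¬ D a c) (hac' : a' ≠ c')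
    (hN' : ¬ D a' c') : Nat.card ↥(K a ⊓ K c) = Nat.card ↥(K a' ⊓ K c') := by
  obtain ⟨g, h1, h2⟩ := R.trN a c a' c' hac hN hac' hN'
  refine Nat.card_congr
    { toFun := fun x => ⟨g * x * g⁻¹, (NTS_norm R a c a' c' g h1 h2 _).1 x.2⟩
      invFun := fun x => ⟨g⁻¹ * x * g, ?_⟩
      left_inv := ?_
      right_inv := ?_ }
  · rw [NTS_norm R a c a' c' g h1 h2]
    have e : g * (g⁻¹ * (x : G) * g) * g⁻¹ = x := by group
    rw [e]; exact x.2
  · intro x; apply Subtype.ext; show g⁻¹ * (g * (x : G) * g⁻¹) * g = x; group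
  · intro x; apply Subtype.ext; show g * (g⁻¹ * (x : G) * g) * g⁻¹ = x; group

theorem NTS_pair (R : Rk G X D K k h l lam mu) {a c : X} (hac : a ≠ c) (hN : ¬ D a c) (hne : ∃ x ∈ K a ⊓ K c, x ≠ 1)
    {y y' : X} (hy : ∀ x ∈ K a ⊓ K c, x • y = y) (hy' : ∀ x ∈ K a ⊓ K c, x • y' = y') (hyy : y ≠ y') :
    ¬ D y y' ∧ K y ⊓ K y' = K a ⊓ K c := by
  have h1 : K a ⊓ K c ≤ K y := fun x hx => kc R hx.1 (hy x hx)
  have h2 : K a ⊓ K c ≤ K y' := fun x hx => kc R hx.1 (hy' x hx)
  obtain ⟨x, hx, hx1⟩ := hne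
  have hD : ¬ D y y' := fun hD => hx1 (R.Kfree y y' x (h1 hx) hD (hy' x hx))
  refine ⟨hD, ?_⟩
  symm
  apply Subgroup.eq_of_le_of_card_ge (le_inf h1 h2)
  rw [NTS_card R hyy hD hac hN]

theorem NTS_cen (R : Rk G X D K k h l lam mu) {y : X} {g x : G} (hgy : g • y = y) (hx : x ∈ K y) (hx1 : x ≠ 1)
    (hc : g * x = x * g) : g ∈ K y := by
  by_contra hg
  have : ¬ ∀ b, D y b → g • b ≠ b := fun hh => hg (R.Kall y g hgy hh)
  push Not at this
  obtain ⟨b, hb, hgb⟩ := this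
  by_cases hg1 : g = 1
  · apply hg; rw [hg1]; exact one_mem _
  · exact hx1 (INV_comm R hb hgy hgb hg1 hx hc)

theorem nts_fixmem {P : Subgroup G} {g : G} (hg : g ∈ normalizer (P : Set G)) {y : X} (hy : ∀ x ∈ P, x • y = y) :
    ∀ x ∈ P, x • (g • y) = g • y := by
  intro x hx
  have h1 := (mem_normalizer_iff.1 (inv_mem hg) x).1 hx
  have h2 := hy _ h1
  rw [_root_.inv_inv] at h2
  rw [mul_smul, mul_smul, inv_smul_eq_iff] at h2
  exact h2

/-- the action of the normalizer on the fixed points -/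
def ntsρ (P : Subgroup G) : ↥(normalizer (P : Set G)) →* Equiv.Perm {y : X // ∀ x ∈ P, x • y = y} where
  toFun g :=
    { toFun := fun y => ⟨(g : G) • (y : X), nts_fixmem g.2 y.2⟩
      invFun := fun y => ⟨(g : G)⁻¹ • (y : X), nts_fixmem (inv_mem g.2) y.2⟩
      left_inv := fun y => Subtype.ext (inv_smul_smul _ _)
      right_inv := fun y => Subtype.ext (smul_inv_smul _ _) }
  map_one' := by ext y; exact one_smul _ _
  map_mul' g g' := by ext y; exact mul_smul _ _ _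

theorem NTS_ex (R : Rk G X D K k h l lam mu) {a c : X} (hac : a ≠ c) (hN : ¬ D a c) : ∃ x0 ∈ K a, x0 • c ≠ c := by
  by_contra hcon
  push Not at hcon
  have h1 : K a ≤ K c := fun x hx => kc R hx (hcon x hx)
  have h2 : K a = K c := Subgroup.eq_of_le_of_card_ge h1 (by rw [R.Kcard, R.Kcard])
  have h3 : K a = ⊥ := by
    refine R.prim2 a c (K a) hac ?_ (R.Kst a)
    rintro g (hg | hg) x hx
    · have := R.Kconj g a x hx; rwa [hg] at this
    · rw [h2] at hx ⊢
      have := R.Kconj g c x hx; rwa [hg] at this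
  obtain ⟨x, hx, hx1⟩ := INV_ne1 R a
  rw [h3, mem_bot] at hx
  exact hx1 hx

theorem NTS_main (R : Rk G X D K k h l lam mu) (hev : Even h) {a c : X} (hac : a ≠ c) (hN : ¬ D a c)
    (hne : ∃ x ∈ K a ⊓ K c, x ≠ 1) :
    ∃ om κ : ℕ, 2 ≤ om ∧ κ = om + 1 ∧ Nat.card {y : X // ∀ x ∈ K a ⊓ K c, x • y = y} = om ^ 2 ∧
      Nat.card ↥(K a ⊓ K c) * κ = k ∧ ∃ z ∈ IC (G := G) X, z • a = a ∧ z • c = c := by
  classical
  have hpair0 := fun (y y' : X) => NTS_pair R hac hN hne (y := y) (y' := y')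
  obtain ⟨x1, hx1P, hx11⟩ := hne
  obtain ⟨x0, hx0, hx0c⟩ := NTS_ex R hac hN
  have hPst : ∀ x ∈ K a ⊓ K c, x • a = a ∧ x • c = c := fun x hx => ⟨R.Kst a x hx.1, R.Kst c x hx.2⟩
  have hPKa : ∀ x ∈ K a ⊓ K c, x ∈ K a := fun x hx => hx.1
  have hPdef : ∀ x, x ∈ K a ⊓ K c ↔ x ∈ K a ∧ x ∈ K c := fun x => mem_inf
  generalize hP : K a ⊓ K c = P at *
  let F := {y : X // ∀ x ∈ P, x • y = y}
  let aF : F := ⟨a, fun x hx => (hPst x hx).1⟩
  let cF : F := ⟨c, fun x hx => (hPst x hx).2⟩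
  have haFcF : aF ≠ cF := fun h => hac (congrArg Subtype.val h)
  have hpair : ∀ y y' : F, y ≠ y' → ¬ D y y' ∧ K (y : X) ⊓ K (y' : X) = P := fun y y' hyy =>
    hpair0 y y' y.2 y'.2 (fun h => hyy (Subtype.ext h))
  have hPK : ∀ y : F, P ≤ K (y : X) := fun y x hx => kc R (hPKa x hx) (y.2 x hx)
  have hab : ∀ y : F, ∀ g ∈ K (y : X), ∀ x ∈ P, g * x = x * g := fun y g hg x hx => inv_ab R hev y g hg x (hPK y hx)
  have hcenK : ∀ y : F, ∀ g : G, g • (y : X) = y → g * x1 = x1 * g → g ∈ K (y : X) := fun y g hg hc =>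
    NTS_cen R hg (hPK y hx1P) hx11 hc
  have htrans : ∀ y y' w w' : F, y ≠ y' → w ≠ w' → ∃ g ∈ normalizer (P : Set G), g • (y : X) = w ∧ g • (y' : X) = w' := by
    intro y y' w w' h1 h2
    obtain ⟨g, hg1, hg2⟩ := R.trN y y' w w' (fun h => h1 (Subtype.ext h)) (hpair y y' h1).1
      (fun h => h2 (Subtype.ext h)) (hpair w w' h2).1
    refine ⟨g, mem_normalizer_iff.2 (fun x => ?_), hg1, hg2⟩
    have := NTS_norm R y y' w w' g hg1 hg2 x
    rw [(hpair y y' h1).2, (hpair w w' h2).2] at this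
    exact this
  have hcN : ∀ g : G, (∀ x ∈ P, g * x = x * g) → g ∈ normalizer (P : Set G) := by
    intro g hg
    rw [mem_normalizer_iff]
    intro x
    constructor
    · intro hx
      have : g * x * g⁻¹ = x := by rw [hg x hx]; group
      rw [this]; exact hx
    · intro hx
      have h1 := hg _ hx
      have h2 : g * x * g⁻¹ = x := by
        have h3 : g * (g * x * g⁻¹) = g * (x * g * g⁻¹) := by
          rw [h1]; group
        have h4 := mul_left_cancel h3
        rw [h4]; group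
      rw [h2] at hx; exact hx
  let ρ := ntsρ (X := X) P
  let Z : Subgroup ↥(normalizer (P : Set G)) := (centralizer (P : Set G)).subgroupOf _
  let C := Z.map ρ
  let J : Set (Equiv.Perm F) := {π | ∃ z : ↥(normalizer (P : Set G)), (z : G) ∈ IC (G := G) X ∧
    (∃ y : F, (z : G) • (y : X) = y) ∧ ρ z = π}
  have hZ : ∀ n : ↥(normalizer (P : Set G)), n ∈ Z ↔ ∀ x ∈ P, (n : G) * x = x * n := by
    intro n
    rw [mem_subgroupOf, mem_centralizer_iff]
    constructor
    · intro h x hx; exact (h x hx).symm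
    · intro h x hx; exact (h x hx).symm
  have hρ : ∀ (n : ↥(normalizer (P : Set G))) (y : F), ρ n • y = y ↔ (n : G) • (y : X) = y := by
    intro n y
    constructor
    · intro h; exact congrArg Subtype.val h
    · intro h; exact Subtype.ext h
  have hρ1 : ∀ n : ↥(normalizer (P : Set G)), (n : G) ∈ P → ρ n = 1 := by
    intro n hn
    ext y
    exact y.2 _ hn
  have hzinv : ∀ (z : G) (y : F), z ∈ IC (G := G) X → z • (y : X) = y → ∀ x ∈ K (y : X), z * x * z⁻¹ = x⁻¹ :=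
    fun z y hz hy => (inv_inv R hev hz hy).1
  have hICsq : ∀ z ∈ IC (G := G) X, z * z = 1 := fun z hz => by rw [← pow_two]; exact hz.1
  have hzN : ∀ (z : G) (y : F), z ∈ IC (G := G) X → z • (y : X) = y → z ∈ normalizer (P : Set G) := by
    intro z y hz hy
    rw [mem_normalizer_iff]
    intro x
    constructor
    · intro hx
      rw [hzinv z y hz hy x (hPK y hx)]
      exact P.inv_mem hx
    · intro hx
      have h1 := hzinv z y hz hy _ (hPK y hx)
      have h2 : z * (z * x * z⁻¹) * z⁻¹ = x := by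
        have : z * (z * x * z⁻¹) * z⁻¹ = (z * z) * x * (z * z)⁻¹ := by group
        rw [this, hICsq z hz]; group
      rw [h2] at h1; rw [h1]; exact P.inv_mem hx
  have hother : ∀ y : F, ∃ w : F, y ≠ w := by
    intro y
    by_cases h : y = aF
    · exact ⟨cF, by rw [h]; exact haFcF⟩
    · exact ⟨aF, h⟩
  -- cardinalities
  have hcard : ∀ y : F, Nat.card ↥P * Nat.card ↥(C ⊓ stabilizer (Equiv.Perm F) y) = k := by
    intro y
    have hKN : K (y : X) ≤ normalizer (P : Set G) := fun g hg => hcN g (hab y g hg)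
    let f : ↥(K (y : X)) →* Equiv.Perm F := ρ.comp (inclusion hKN)
    have hker : f.ker = P.subgroupOf (K (y : X)) := by
      ext g
      rw [MonoidHom.mem_ker, mem_subgroupOf]
      constructor
      · intro hg
        obtain ⟨w, hw⟩ := hother y
        have h1 : (g : G) • (w : X) = w := congrArg (fun π : Equiv.Perm F => ((π w : F) : X)) hg
        have h2 : (g : G) ∈ K (y : X) ⊓ K (w : X) := ⟨g.2, kc R g.2 h1⟩
        rw [(hpair y w hw).2] at h2; exact h2
      · intro hg; exact hρ1 _ hg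
    have hrange : f.range = C ⊓ stabilizer (Equiv.Perm F) y := by
      ext π
      rw [MonoidHom.mem_range, mem_inf]
      constructor
      · rintro ⟨g, rfl⟩
        refine ⟨⟨inclusion hKN g, (hZ _).2 (hab y g g.2), rfl⟩, ?_⟩
        rw [mem_stabilizer_iff]
        exact Subtype.ext (R.Kst y g g.2)
      · rintro ⟨⟨n, hn, rfl⟩, hst⟩
        rw [mem_stabilizer_iff, hρ] at hst
        have h1 := hcenK y n hst ((hZ n).1 hn x1 hx1P)
        exact ⟨⟨n, h1⟩, rfl⟩
    have h1 := f.ker.card_mul_index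
    rw [Subgroup.index_ker, hrange, hker, Nat.card_congr (subgroupOfEquivOfLe (hPK y)).toEquiv, R.Kcard] at h1
    exact h1
  have hκ : ∀ y : F, Nat.card ↥(C ⊓ stabilizer (Equiv.Perm F) y) = Nat.card ↥(C ⊓ stabilizer (Equiv.Perm F) aF) := by
    intro y
    have h1 := hcard y
    rw [← hcard aF] at h1
    exact Nat.eq_of_mul_eq_mul_left Nat.card_pos h1
  have hka := hcard aF
  set κ := Nat.card ↥(C ⊓ stabilizer (Equiv.Perm F) aF) with hκd
  have hodd : Odd κ := by
    rw [← Nat.not_even_iff_odd]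
    intro he
    apply INV_kodd R hev
    rw [← hka]
    exact Dvd.dvd.mul_left he.two_dvd _
  have hκ1 : 1 < κ := by
    by_contra hle
    have hpos : 0 < κ := Nat.card_pos
    have h1 : κ = 1 := by omega
    have h2 : (K a : Subgroup G) = P := by
      symm
      apply Subgroup.eq_of_le_of_card_ge (hPK aF)
      rw [h1, mul_one] at hka
      rw [R.Kcard, hka]
    apply hx0c
    rw [h2] at hx0
    exact (hPst x0 hx0).2
  have hJy : ∀ y : F, ∀ z ∈ J, z • y = y → ∀ c ∈ C, c • y = y → z * c ∈ J := by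
    rintro y _ ⟨z, hz, -, rfl⟩ hy _ ⟨g, hg, rfl⟩ hgy
    rw [hρ] at hy hgy
    have hgK := hcenK y g hgy ((hZ g).1 hg x1 hx1P)
    refine ⟨z * g, ⟨?_, ?_, (y : X), ?_⟩, ⟨y, ?_⟩, map_mul _ _ _⟩
    · show ((z : G) * g) ^ 2 = 1
      have h1 := hzinv z y hz hy g hgK
      have h2 : ((z : G) * g) ^ 2 = (z * g * (z : G)⁻¹) * (z * z) * g := by rw [pow_two]; group
      rw [h2, h1, hICsq _ hz]; group
    · show (z : G) * g ≠ 1
      intro h1
      apply INV_notK R hev hz.1 hz.2.1 (a := (y : X))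
      rw [eq_inv_of_mul_eq_one_left h1]
      exact inv_mem hgK
    · show ((z : G) * g) • (y : X) = y
      rw [mul_smul, hgy, hy]
    · show ((z : G) * g) • (y : X) = y
      rw [mul_smul, hgy, hy]
  have hJ1 : ∀ z ∈ J, z * z = 1 := by
    rintro _ ⟨z, hz, -, rfl⟩
    rw [← map_mul]
    have : z * z = 1 := Subtype.ext (hICsq _ hz)
    rw [this, map_one]
  have hJm : ∀ z ∈ J, ∃ w : F, z • w ≠ w := by
    intro z hz
    by_contra hcon
    push Not at hcon
    have h1 : z = 1 := Equiv.ext hcon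
    obtain ⟨x, hx⟩ : ∃ x : ↥(C ⊓ stabilizer (Equiv.Perm F) aF), x ≠ 1 := by
      by_contra hcon
      push Not at hcon
      have : Nat.card ↥(C ⊓ stabilizer (Equiv.Perm F) aF) ≤ 1 := by
        rw [Finite.card_le_one_iff_subsingleton]
        exact ⟨fun x y => by rw [hcon x, hcon y]⟩
      omega
    have h2 := hJ1 _ (hJy aF z hz (hcon aF) x x.2.1 x.2.2)
    rw [h1, one_mul] at h2
    apply hx
    apply Subtype.ext
    exact Cfsg.Agent.Lib.FRNTS.odd_sq hodd rfl x.2.1 x.2.2 h2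
  obtain ⟨om, hom, hF, hk1, hpairs⟩ := Cfsg.Agent.Lib.FRNTS.nts_abs (M := Equiv.Perm F) (F := F) C J κ
    (by
      rintro _ ⟨n, hn, rfl⟩ y y' hyy h3 h4
      rw [hρ] at h3 h4
      have h5 := hcenK y n h3 ((hZ n).1 hn x1 hx1P)
      have h6 := hcenK y' n h4 ((hZ n).1 hn x1 hx1P)
      have h7 : (n : G) ∈ K (y : X) ⊓ K (y' : X) := ⟨h5, h6⟩
      rw [(hpair y y' hyy).2] at h7
      exact hρ1 n h7)
    (by
      intro y y'
      by_cases hyy : y = y'
      · exact ⟨1, one_mem _, by rw [one_smul, hyy]⟩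
      · have hx0P : ∀ x ∈ P, x0 * x = x * x0 := hab aF x0 hx0
        let xF : F := ⟨x0 • c, nts_fixmem (hcN x0 hx0P) cF.2⟩
        have hne' : cF ≠ xF := fun h => hx0c (congrArg Subtype.val h).symm
        obtain ⟨g, hg, hg1, hg2⟩ := htrans cF xF y y' hne' hyy
        have hcen : ∀ x ∈ P, (g * x0 * g⁻¹) * x = x * (g * x0 * g⁻¹) := by
          intro x hx
          have h1 := (mem_normalizer_iff.1 (inv_mem hg) x).1 hx
          rw [_root_.inv_inv] at h1
          have h2 := hx0P _ h1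
          have h3 : (g * x0 * g⁻¹) * x = g * (x0 * (g⁻¹ * x * g)) * g⁻¹ := by group
          rw [h3, h2]; group
        refine ⟨ρ ⟨g * x0 * g⁻¹, hcN _ hcen⟩, ⟨_, (hZ _).2 hcen, rfl⟩, ?_⟩
        apply Subtype.ext
        show (g * x0 * g⁻¹) • (y : X) = y'
        rw [← hg1, mul_smul, mul_smul, inv_smul_smul]
        exact hg2)
    hκ hodd hκ1 hJ1 hJm
    (by
      rintro _ ⟨z, hz, ⟨y, hy⟩, rfl⟩ _ ⟨z', hz', ⟨y', hy'⟩, rfl⟩
      rw [← map_mul]
      refine ⟨z * z', (hZ _).2 ?_, rfl⟩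
      intro x hx
      show (z : G) * z' * x = x * ((z : G) * z')
      have h1 := hzinv z' y' hz' hy' x (hPK y' hx)
      have h2 := hzinv z y hz hy x⁻¹ (hPK y (inv_mem hx))
      have h3 : (z : G) * z' * x = z * (z' * x * (z' : G)⁻¹) * (z : G)⁻¹ * (z * z') := by group
      rw [h3, h1, h2, _root_.inv_inv])
    (by
      rintro _ ⟨z, hz, ⟨y, hy⟩, rfl⟩ _ ⟨g, hg, rfl⟩
      have hgy : ((g : G) * z * (g : G)⁻¹) • ((ρ g y : F) : X) = ((ρ g y : F) : X) := by
        show ((g : G) * z * (g : G)⁻¹) • ((g : G) • (y : X)) = (g : G) • (y : X)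
        rw [mul_smul, mul_smul, inv_smul_smul, hy]
      refine ⟨g * z * g⁻¹, ⟨?_, ?_, ((ρ g y : F) : X), hgy⟩, ⟨ρ g y, hgy⟩, by rw [map_mul, map_mul, map_inv]⟩
      · show ((g : G) * z * (g : G)⁻¹) ^ 2 = 1
        rw [conj_pow, hz.1, mul_one, mul_inv_cancel]
      · show (g : G) * z * (g : G)⁻¹ ≠ 1
        intro h1
        apply hz.2.1
        have : (z : G) = (g : G)⁻¹ * ((g : G) * z * (g : G)⁻¹) * g := by group
        rw [this, h1]; group)
    (by
      rintro _ ⟨z, hz, ⟨y, hy⟩, rfl⟩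
      exact ⟨y, (hρ z y).2 hy⟩)
    hJy
    (by
      intro y
      obtain ⟨b, hb⟩ := INV_exD R (y : X)
      obtain ⟨z, hz2, hz1, hza, hzb⟩ := INV_exists R hev hb
      have hz : z ∈ IC (G := G) X := ⟨hz2, hz1, _, hza⟩
      exact ⟨ρ ⟨z, hzN z y hz hza⟩, ⟨⟨z, hzN z y hz hza⟩, hz, ⟨y, hza⟩, rfl⟩, Subtype.ext hza⟩)
    (by
      by_cases hA : ∀ z ∈ J, ∀ y y' : F, z • y = y → z • y' = y' → y = y'
      · left; exact hA
      · right
        push Not at hA
        obtain ⟨_, ⟨z, hz, -, rfl⟩, y1, y2, h1, h2, h12⟩ := hA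
        rw [hρ] at h1 h2
        intro y y' hyy
        obtain ⟨g, hg, hg1, hg2⟩ := htrans y1 y2 y y' h12 hyy
        have hgy : (g * z * g⁻¹) • (y : X) = y := by
          rw [← hg1, mul_smul, mul_smul, inv_smul_smul, h1]
        have hgy' : (g * z * g⁻¹) • (y' : X) = y' := by
          rw [← hg2, mul_smul, mul_smul, inv_smul_smul, h2]
        have hIC : g * z * g⁻¹ ∈ IC (G := G) X := by
          refine ⟨?_, ?_, _, hgy⟩
          · rw [conj_pow, hz.1, mul_one, mul_inv_cancel]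
          · intro h1
            apply hz.2.1
            have : (z : G) = g⁻¹ * (g * z * g⁻¹) * g := by group
            rw [this, h1]; group
        exact ⟨ρ ⟨g * z * g⁻¹, hzN _ y hIC hgy⟩, ⟨⟨g * z * g⁻¹, hzN _ y hIC hgy⟩, hIC, ⟨y, hgy⟩, rfl⟩,
          Subtype.ext hgy, Subtype.ext hgy'⟩)
    ⟨aF, cF, haFcF⟩
  refine ⟨om, κ, hom, hk1, hF, hka, ?_⟩
  obtain ⟨_, ⟨z, hz, -, rfl⟩, h1, h2⟩ := hpairs aF cF haFcF
  rw [hρ] at h1 h2
  exact ⟨z, hz, h1, h2⟩

theorem NTS_cop (R : Rk G X D K k h l lam mu) {a : X} {P : Subgroup G} (hPK : P ≤ K a)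
    {g x0 : G} (hg : g ∈ normalizer (P : Set G)) (hga : g • a = a) (hx0 : x0 ∈ K a) (hx0P : x0 ∉ P)
    (hgx : x0⁻¹ * (g * x0 * g⁻¹) ∈ P) : g ∈ K a := by
  by_contra hgK
  have : ¬ ∀ b, D a b → g • b ≠ b := fun hh => hgK (R.Kall a g hga hh)
  push Not at this
  obtain ⟨b, hb, hgb⟩ := this
  have hg1 : g ≠ 1 := by rintro rfl; exact hgK (one_mem _)
  have hinj : ∀ u ∈ K a, ∀ w ∈ K a, u⁻¹ * (g * u * g⁻¹) = w⁻¹ * (g * w * g⁻¹) → u = w := by
    intro u hu w hw heq
    have h1 : g * u * g⁻¹ = u * (w⁻¹ * (g * w * g⁻¹)) := by rw [← heq]; group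
    have h2 : g * (u * w⁻¹) = (u * w⁻¹) * g := by
      have h3 : g * (u * w⁻¹) = (g * u * g⁻¹) * (g * w * g⁻¹)⁻¹ * g := by group
      rw [h3, h1]; group
    have h4 := INV_comm R hb hga hgb hg1 (x := u * w⁻¹) (mul_mem hu (inv_mem hw)) h2
    exact mul_inv_eq_one.1 h4
  let φ : ↥P → ↥P := fun p => ⟨(p : G)⁻¹ * (g * p * g⁻¹), mul_mem (inv_mem p.2) ((mem_normalizer_iff.1 hg _).1 p.2)⟩
  have hφ : Function.Injective φ := by
    intro p p' hpp
    exact Subtype.ext (hinj p (hPK p.2) p' (hPK p'.2) (congrArg Subtype.val hpp))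
  obtain ⟨p, hp⟩ := Finite.injective_iff_surjective.1 hφ ⟨_, hgx⟩
  have h1 := hinj p (hPK p.2) x0 hx0 (congrArg Subtype.val hp)
  apply hx0P
  rw [← h1]; exact p.2

theorem NTS_eta (R : Rk G X D K k h l lam mu) (hev : Even h) {a c : X} (hac : a ≠ c) (hN : ¬ D a c)
    (hne : ∃ x ∈ K a ⊓ K c, x ≠ 1) :
    Nat.card ↥(K a ⊓ K c) * 3 = k ∧
      Nat.card ↥(stabilizer G a ⊓ stabilizer G c) = 2 * Nat.card ↥(K a ⊓ K c) := by
  classical
  obtain ⟨om, κ, hom, hκ, hF, hk, z, hz, hza, hzc⟩ := NTS_main R hev hac hN hne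
  have hpair0 := fun (y y' : X) => NTS_pair R hac hN hne (y := y) (y' := y')
  obtain ⟨x0, hx0, hx0c⟩ := NTS_ex R hac hN
  have hPst : ∀ x ∈ K a ⊓ K c, x • a = a ∧ x • c = c := fun x hx => ⟨R.Kst a x hx.1, R.Kst c x hx.2⟩
  have hPKa : K a ⊓ K c ≤ K a := inf_le_left
  have hconjS : ∀ g : G, g • a = a → g • c = c → ∀ x, x ∈ K a ⊓ K c ↔ g * x * g⁻¹ ∈ K a ⊓ K c :=
    fun g h1 h2 x => NTS_norm R a c a c g h1 h2 x
  have hconj2 : ∀ y y' w w' : X, ∀ g : G, g • y = w → g • y' = w' → ∀ x, x ∈ K y ⊓ K y' ↔ g * x * g⁻¹ ∈ K w ⊓ K w' :=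
    fun y y' w w' g h1 h2 x => NTS_norm R y y' w w' g h1 h2 x
  generalize hP : K a ⊓ K c = P at *
  let S := stabilizer G a ⊓ stabilizer G c
  have hPS : P ≤ S := fun x hx => ⟨(hPst x hx).1, (hPst x hx).2⟩
  obtain ⟨h', hh'⟩ := Subgroup.card_dvd_of_le hPS
  have hPpos : 0 < Nat.card ↥P := Nat.card_pos
  have hSpos : 0 < Nat.card ↥S := Nat.card_pos
  have hh2 : 2 ≤ h' := by
    by_contra hlt
    have h0 : h' = 0 ∨ h' = 1 := by omega
    rcases h0 with h0 | h0
    · rw [h0, mul_zero] at hh'; omega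
    · rw [h0, mul_one] at hh'
      have h1 : P = S := Subgroup.eq_of_le_of_card_ge hPS hh'.le
      have h2 : z ∈ S := ⟨hza, hzc⟩
      rw [← h1] at h2
      exact INV_notK R hev hz.1 hz.2.1 (hPKa h2)
  let Na := normalizer (P : Set G) ⊓ stabilizer G a
  have hSN : S ≤ Na := by
    rintro g ⟨hg1, hg2⟩
    exact ⟨mem_normalizer_iff.2 (fun x => hconjS g hg1 hg2 x), hg1⟩
  have hKN : K a ≤ Na := by
    intro g hg
    refine ⟨mem_normalizer_iff.2 (fun x => ?_), R.Kst a g hg⟩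
    have hcm := fun x (hx : x ∈ K a) => inv_ab R hev a g hg x hx
    constructor
    · intro hx
      have : g * x * g⁻¹ = x := by rw [hcm x (hPKa hx)]; group
      rw [this]; exact hx
    · intro hx
      have h1 : g * (g * x * g⁻¹) = (g * x * g⁻¹) * g := hcm _ (hPKa hx)
      have h2 : g * x * g⁻¹ = x := by
        have h3 : g * (g * x * g⁻¹) = g * x := by rw [h1]; group
        exact mul_left_cancel h3
      rw [h2] at hx; exact hx
  -- orbit
  have e := MulAction.orbitProdStabilizerEquivGroup Na c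
  have hNa := Nat.card_congr e
  rw [Nat.card_prod] at hNa
  let Fs : Set X := {y | ∀ x ∈ P, x • y = y}
  have horb : MulAction.orbit Na c = Fs \ {a} := by
    ext c'
    rw [MulAction.mem_orbit_iff]
    constructor
    · rintro ⟨g, rfl⟩
      refine ⟨nts_fixmem g.2.1 (fun x hx => (hPst x hx).2), ?_⟩
      intro h1
      have h1' : (g : G) • c = a := h1
      have h2 : (g : G) • a = a := g.2.2
      apply hac
      apply MulAction.injective (g : G)
      show (g : G) • a = (g : G) • c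
      rw [h1', h2]
    · rintro ⟨h1, h2⟩
      have h2' : a ≠ c' := fun h => h2 h.symm
      have h3 := hpair0 a c' (fun x hx => (hPst x hx).1) h1 h2'
      obtain ⟨g, hg1, hg2⟩ := R.trN a c a c' hac hN h2' h3.1
      refine ⟨⟨g, mem_normalizer_iff.2 (fun x => ?_), hg1⟩, hg2⟩
      have h4 := hconj2 a c a c' g hg1 hg2 x
      rw [h3.2, hP] at h4
      exact h4
  have hstab : Nat.card (MulAction.stabilizer Na c) = Nat.card ↥S := by
    have h4 : MulAction.stabilizer Na c = S.subgroupOf Na := by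
      ext g
      rw [mem_subgroupOf, mem_inf, mem_stabilizer_iff, mem_stabilizer_iff, mem_stabilizer_iff]
      constructor
      · intro h1; exact ⟨g.2.2, h1⟩
      · intro h1; exact h1.2
    rw [h4, Nat.card_congr (subgroupOfEquivOfLe hSN).toEquiv]
  have hFs : Nat.card ↥Fs = om ^ 2 := hF
  have hon : Nat.card ↥(MulAction.orbit Na c) = om ^ 2 - 1 := by
    rw [horb, Nat.card_coe_set_eq, Set.ncard_diff_singleton_of_mem (show a ∈ Fs from fun x hx => (hPst x hx).1),
      ← Nat.card_coe_set_eq, hFs]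
  rw [hon, hstab] at hNa
  -- quotient
  let Q := ↥Na ⧸ (K a).subgroupOf Na
  have hQ := Subgroup.card_eq_card_quotient_mul_card_subgroup ((K a).subgroupOf Na)
  rw [Nat.card_congr (subgroupOfEquivOfLe hKN).toEquiv, R.Kcard] at hQ
  have hx0P : x0 ∉ P := fun h => hx0c (hPst x0 h).2
  have hmem : ∀ (q : Q) (p : ↥P), ((Quotient.out q : ↥Na) : G) * x0 * ((Quotient.out q : ↥Na) : G)⁻¹ * p ∈ ((K a : Set G) \ P) := by
    intro q p
    have hq := (Quotient.out q : ↥Na).2
    set g : G := ((Quotient.out q : ↥Na) : G)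
    constructor
    · refine mul_mem ?_ (hPKa p.2)
      have := R.Kconj g a x0 hx0
      rw [show g • a = a from hq.2] at this
      exact this
    · intro h1
      have h2 : g * x0 * g⁻¹ ∈ P := (Subgroup.mul_mem_cancel_right P p.2).1 h1
      exact hx0P ((mem_normalizer_iff.1 hq.1 x0).2 h2)
  have hinj : Function.Injective (fun qp : Q × ↥P => (⟨_, hmem qp.1 qp.2⟩ : ↥((K a : Set G) \ P))) := by
    rintro ⟨q1, p1⟩ ⟨q2, p2⟩ heq
    have h1 := congrArg Subtype.val heq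
    simp only at h1
    have hq1 := (Quotient.out q1 : ↥Na).2
    have hq2 := (Quotient.out q2 : ↥Na).2
    have hg : ((Quotient.out q2 : ↥Na) : G)⁻¹ * ((Quotient.out q1 : ↥Na) : G) ∈ K a := by
      refine NTS_cop R hPKa (mul_mem (inv_mem hq2.1) hq1.1) ?_ hx0 hx0P ?_
      · rw [mul_smul, show ((Quotient.out q1 : ↥Na) : G) • a = a from hq1.2, inv_smul_eq_iff]
        exact (show ((Quotient.out q2 : ↥Na) : G) • a = a from hq2.2).symm
      · set g1 : G := ((Quotient.out q1 : ↥Na) : G)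
        set g2 : G := ((Quotient.out q2 : ↥Na) : G)
        have h2 : g1 * x0 * g1⁻¹ = g2 * x0 * g2⁻¹ * p2 * (p1 : G)⁻¹ := by rw [← h1]; group
        have h3 : x0⁻¹ * (g2⁻¹ * g1 * x0 * (g2⁻¹ * g1)⁻¹) = g2⁻¹ * ((p2 : G) * (p1 : G)⁻¹) * g2 := by
          have h4 : x0⁻¹ * (g2⁻¹ * g1 * x0 * (g2⁻¹ * g1)⁻¹) = x0⁻¹ * (g2⁻¹ * (g1 * x0 * g1⁻¹) * g2) := by group
          rw [h4, h2]; group
        rw [h3]
        have h5 := (mem_normalizer_iff.1 (inv_mem hq2.1) ((p2 : G) * (p1 : G)⁻¹)).1 (mul_mem p2.2 (inv_mem p1.2))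
        rw [_root_.inv_inv] at h5
        exact h5
    have hqq : q1 = q2 := by
      rw [← Quotient.out_eq q1, ← Quotient.out_eq q2]
      symm
      apply QuotientGroup.eq.2
      rw [mem_subgroupOf]
      exact hg
    subst hqq
    have h6 : (p1 : G) = p2 := mul_left_cancel h1
    exact Prod.ext rfl (Subtype.ext h6)
  have hle := Nat.card_le_card_of_injective _ hinj
  rw [Nat.card_prod, Nat.card_coe_set_eq, Set.ncard_diff (show (P : Set G) ⊆ (K a : Set G) from hPKa),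
    ← Nat.card_coe_set_eq, ← Nat.card_coe_set_eq] at hle
  have hKc : Nat.card ↥(K a : Set G) = k := R.Kcard a
  have hPc : Nat.card ↥(P : Set G) = Nat.card ↥P := rfl
  rw [hKc, hPc] at hle
  -- arithmetic
  obtain ⟨o, ho⟩ : ∃ o, om = o + 2 := ⟨om - 2, by omega⟩
  have hSc : Nat.card ↥S = Nat.card ↥P * h' := hh'
  set p := Nat.card ↥P with hpd
  set q := Nat.card Q with hqd
  have e1 : (om ^ 2 - 1) = (o + 1) * (o + 3) := by
    rw [ho]; 
    have : (o + 2) ^ 2 = (o + 1) * (o + 3) + 1 := by ring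
    rw [this]; rfl
  have e2 : (o + 1) * (o + 3) * (p * h') = q * k := by
    rw [← e1, ← hSc, hNa]; exact hQ
  have e3 : k = p * (o + 3) := by rw [← hk, hκ, ho]
  have e4 : q = (o + 1) * h' := by
    have : (p * (o + 3)) * q = (p * (o + 3)) * ((o + 1) * h') := by
      calc (p * (o + 3)) * q = q * k := by rw [e3]; ring
        _ = _ := by rw [← e2]; ring
    exact Nat.eq_of_mul_eq_mul_left (by positivity) this
  have e5 : q ≤ o + 2 := by
    have h1 : q * p ≤ p * (o + 2) := by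
      calc q * p ≤ k - p := hle
        _ = p * (o + 2) := by rw [e3, show p * (o + 3) = p * (o + 2) + p by ring]; omega
    have h2 : p * q ≤ p * (o + 2) := by rw [mul_comm p q]; exact h1
    exact Nat.le_of_mul_le_mul_left h2 hPpos
  have e6 : o = 0 := by
    by_contra ho0
    have : (o + 1) * 2 ≤ (o + 1) * h' := Nat.mul_le_mul_left _ hh2
    omega
  rw [e6] at e4 e5 e3
  have e7 : h' = 2 := by omega
  refine ⟨by rw [e3], ?_⟩
  show Nat.card ↥S = 2 * p
  rw [hSc, e7, mul_comm]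

theorem NTS_fxconj (z g : G) : fx X (g * z * g⁻¹) = fx X z := by
  unfold fx
  refine Nat.card_congr
    { toFun := fun y => ⟨g⁻¹ • (y : X), ?_⟩
      invFun := fun y => ⟨g • (y : X), ?_⟩
      left_inv := fun y => Subtype.ext (smul_inv_smul _ _)
      right_inv := fun y => Subtype.ext (inv_smul_smul _ _) }
  · have h1 := y.2
    rw [mul_smul, mul_smul] at h1
    exact eq_inv_smul_iff.2 h1
  · rw [mul_smul, mul_smul, inv_smul_smul, y.2]

theorem NTS_num (R : Rk G X D K k h l lam mu) (hev : Even h) {a y : X} {z0 : G} (hz0 : z0 ∈ IC (G := G) X)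
    (ha : z0 • a = a) (hy : z0 • y = y) :
    Nat.card {z : G // z ∈ IC (G := G) X ∧ z • a = a ∧ z • y = y} = Nat.card ↥(K a ⊓ K y) := by
  have hsq : ∀ z ∈ IC (G := G) X, z * z = 1 := fun z hz => by rw [← pow_two]; exact hz.1
  have hinvz : ∀ z ∈ IC (G := G) X, z⁻¹ = z := fun z hz => inv_eq_of_mul_eq_one_left (hsq z hz)
  have hK : ∀ w : X, z0 • w = w → ∀ z ∈ IC (G := G) X, z • w = w → z0 * z ∈ K w := by
    intro w hw0 z hz hw
    obtain ⟨x, hx, hx1⟩ := INV_ne1 R w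
    refine NTS_cen R (by rw [mul_smul, hw, hw0]) hx hx1 ?_
    have h1 := (inv_inv R hev hz hw).1 x hx
    have h2 := (inv_inv R hev hz0 hw0).1 x⁻¹ (inv_mem hx)
    have h3 : z0 * z * x = z0 * (z * x * z⁻¹) * z0⁻¹ * (z0 * z) := by group
    rw [h3, h1, h2, _root_.inv_inv]
  refine Nat.card_congr
    { toFun := fun z => ⟨z0 * z.1, hK a ha z z.2.1 z.2.2.1, hK y hy z z.2.1 z.2.2.2⟩
      invFun := fun x => ⟨z0 * x.1, ⟨?_, ?_, a, ?_⟩, ?_, ?_⟩
      left_inv := ?_
      right_inv := ?_ }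
  · have h1 := (inv_inv R hev hz0 ha).1 x.1 x.2.1
    have h2 : (z0 * x.1) ^ 2 = (z0 * x.1 * z0⁻¹) * (z0 * z0) * x.1 := by rw [pow_two]; group
    rw [h2, h1, hsq _ hz0]; group
  · intro h1
    apply INV_notK R hev hz0.1 hz0.2.1 (a := a)
    rw [eq_inv_of_mul_eq_one_left h1]
    exact inv_mem x.2.1
  · rw [mul_smul, R.Kst a x.1 x.2.1, ha]
  · rw [mul_smul, R.Kst a x.1 x.2.1, ha]
  · rw [mul_smul, R.Kst y x.1 x.2.2, hy]
  · intro z; apply Subtype.ext; show z0 * (z0 * z.1) = z.1; rw [← mul_assoc, hsq _ hz0, one_mul]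
  · intro z; apply Subtype.ext; show z0 * (z0 * z.1) = z.1; rw [← mul_assoc, hsq _ hz0, one_mul]

/-- NTS -/
theorem nts (R : Rk G X D K k h l lam mu) (hev : Even h) (nt : NT D K) :
    (∀ a : X, ∀ x ∈ K a, x ^ 3 = 1) ∧ 2 * l = 3 * h ∧ (∀ z ∈ IC (G := G) X, 2 * fx X z = h + 4) := by
  classical
  cases nonempty_fintype X
  cases nonempty_fintype G
  have hne : ∀ a c : X, a ≠ c → ¬ D a c → ∃ x ∈ K a ⊓ K c, x ≠ 1 := by
    intro a c hac hN
    obtain ⟨x, h1, h2, h3⟩ := nt a c hac hN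
    exact ⟨x, ⟨h1, h2⟩, h3⟩
  have E : ∀ a c : X, a ≠ c → ¬ D a c → Nat.card ↥(K a ⊓ K c) * 3 = k ∧
      Nat.card ↥(stabilizer G a ⊓ stabilizer G c) = 2 * Nat.card ↥(K a ⊓ K c) :=
    fun a c hac hN => NTS_eta R hev hac hN (hne a c hac hN)
  have hA : ∀ a : X, ∀ x ∈ K a, x ^ 3 = 1 := by
    intro a x hx
    by_contra h3
    obtain ⟨c, hca, hN, hmv⟩ := R.prim1 a (x ^ 3) (pow_mem hx 3) h3
    have hle : K a ⊓ K c ≤ K a := inf_le_left
    haveI : ((K a ⊓ K c).subgroupOf (K a)).Normal := by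
      constructor
      intro n hn g
      have : g * n * g⁻¹ = n := by
        have h4 : g * n = n * g := Subtype.ext (inv_ab R hev a g g.2 n n.2)
        rw [h4]; group
      rw [this]; exact hn
    have hi := ((K a ⊓ K c).subgroupOf (K a)).card_mul_index
    rw [Nat.card_congr (subgroupOfEquivOfLe hle).toEquiv, R.Kcard, ← (E a c (Ne.symm hca) hN).1] at hi
    have hi3 : ((K a ⊓ K c).subgroupOf (K a)).index = 3 := Nat.eq_of_mul_eq_mul_left Nat.card_pos hi
    have h4 := ((K a ⊓ K c).subgroupOf (K a)).pow_index_mem (⟨x, hx⟩ : K a)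
    rw [hi3, mem_subgroupOf] at h4
    exact hmv (R.Kst c _ h4.2)
  have hXne : Nonempty X := by
    have h1 := R.cX
    have h2 : 0 < Nat.card X := by omega
    exact (Nat.card_pos_iff.1 h2).1
  have hB : 2 * l = 3 * h := by
    obtain ⟨a⟩ := hXne
    have : Nonempty {c // c ≠ a ∧ ¬ D a c} := by
      have h1 := R.cN a
      have h2 : 0 < Nat.card {c // c ≠ a ∧ ¬ D a c} := by have := R.l1; omega
      exact (Nat.card_pos_iff.1 h2).1
    obtain ⟨⟨c, hca, hN⟩⟩ := this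
    have h1 := (hl R).2 a c (Ne.symm hca) hN
    obtain ⟨h2, h3⟩ := E a c (Ne.symm hca) hN
    rw [h3, ← h2] at h1
    have hpos : 0 < Nat.card ↥(K a ⊓ K c) := Nat.card_pos
    apply Nat.eq_of_mul_eq_mul_left hpos
    calc Nat.card ↥(K a ⊓ K c) * (2 * l) = l * (2 * Nat.card ↥(K a ⊓ K c)) := by ring
      _ = Nat.card ↥(K a ⊓ K c) * 3 * h := h1
      _ = _ := by ring
  refine ⟨hA, hB, ?_⟩
  intro z hz
  obtain ⟨a, ha⟩ := hz.2.2
  obtain ⟨p, hp⟩ : ∃ p, k = 3 * p := by
    obtain ⟨x, hx, hx1⟩ := INV_ne1 R a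
    obtain ⟨c, hca, hN, -⟩ := R.prim1 a x hx hx1
    exact ⟨_, by rw [mul_comm]; exact (E a c (Ne.symm hca) hN).1.symm⟩
  let A : Finset G := Finset.univ.filter (fun z => z ∈ IC (G := G) X ∧ z • a = a)
  have hAc : A.card = k := by
    rw [← inv_num R hev a, Nat.card_eq_fintype_card, Fintype.card_subtype]
  have hconst : ∀ z' ∈ A, (Finset.univ.filter (fun y : X => z' • y = y)).card = fx X z := by
    intro z' hz'
    simp only [A, Finset.mem_filter, Finset.mem_univ, true_and] at hz'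
    obtain ⟨g, hg⟩ := inv_conj R hev hz hz'.1
    rw [← NTS_fxconj z g, hg]
    unfold fx
    rw [Nat.card_eq_fintype_card, Fintype.card_subtype]
  have hdc := Finset.sum_card_bipartiteAbove_eq_sum_card_bipartiteBelow (s := A) (t := (Finset.univ : Finset X))
    (fun (z' : G) (y : X) => z' • y = y)
  have hL : ∑ z' ∈ A, (Finset.bipartiteAbove (fun (z' : G) (y : X) => z' • y = y) Finset.univ z').card = k * fx X z := by
    have : ∀ z' ∈ A, (Finset.bipartiteAbove (fun (z' : G) (y : X) => z' • y = y) Finset.univ z').card = fx X z :=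
      fun z' hz' => hconst z' hz'
    rw [Finset.sum_congr rfl this, Finset.sum_const, hAc, smul_eq_mul]
  have hR : ∀ y ∈ (Finset.univ : Finset X),
      (Finset.bipartiteBelow (fun (z' : G) (y : X) => z' • y = y) A y).card =
        (if y = a then k else 0) + (if D a y then 1 else 0) + (if y ≠ a ∧ ¬ D a y then p else 0) := by
    intro y _
    have hset : (Finset.bipartiteBelow (fun (z' : G) (y : X) => z' • y = y) A y).card =
        Nat.card {z : G // z ∈ IC (G := G) X ∧ z • a = a ∧ z • y = y} := by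
      rw [Nat.card_eq_fintype_card, Fintype.card_subtype]
      congr 1
      ext z'
      simp only [Finset.mem_bipartiteBelow, A, Finset.mem_filter, Finset.mem_univ, true_and, and_assoc]
    rw [hset]
    by_cases hya : y = a
    · rw [if_pos hya, if_neg (by rw [hya]; exact R.irr a), if_neg (fun h => h.1 hya), hya, add_zero, add_zero,
        ← inv_num R hev a]
      refine Nat.card_congr (Equiv.subtypeEquivRight (fun z' => ?_))
      constructor
      · rintro ⟨h1, h2, _⟩; exact ⟨h1, h2⟩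
      · rintro ⟨h1, h2⟩; exact ⟨h1, h2, h2⟩
    · by_cases hD : D a y
      · rw [if_neg hya, if_pos hD, if_neg (fun h => h.2 hD), zero_add, add_zero]
        rw [Nat.card_eq_one_iff_unique]
        obtain ⟨z1, hz1, hu⟩ := inv_ex R hev hD
        constructor
        · constructor
          rintro ⟨w, hw⟩ ⟨w', hw'⟩
          apply Subtype.ext
          show w = w'
          rw [hu w ⟨hw.1.1, hw.1.2.1, hw.2.1, hw.2.2⟩, hu w' ⟨hw'.1.1, hw'.1.2.1, hw'.2.1, hw'.2.2⟩]
        · exact ⟨⟨z1, ⟨hz1.1, hz1.2.1, a, hz1.2.2.1⟩, hz1.2.2.1, hz1.2.2.2⟩⟩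
      · rw [if_neg hya, if_neg hD, if_pos ⟨hya, hD⟩, zero_add, zero_add]
        obtain ⟨_, _, _, _, _, _, z0, hz0, hz0a, hz0y⟩ := NTS_main R hev (Ne.symm hya) hD (hne a y (Ne.symm hya) hD)
        rw [NTS_num R hev hz0 hz0a hz0y]
        have := (E a y (Ne.symm hya) hD).1
        omega
  rw [hL, Finset.sum_congr rfl hR, Finset.sum_add_distrib, Finset.sum_add_distrib, Finset.sum_ite_eq' ,
    if_pos (Finset.mem_univ a), ← Finset.sum_filter, ← Finset.sum_filter, Finset.sum_const, Finset.sum_const] at hdc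
  have c1 : (Finset.univ.filter (fun y : X => D a y)).card = k := by
    rw [← R.cD a, Nat.card_eq_fintype_card, Fintype.card_subtype]
  have c2 : (Finset.univ.filter (fun y : X => y ≠ a ∧ ¬ D a y)).card = l := by
    rw [← R.cN a, Nat.card_eq_fintype_card, Fintype.card_subtype]
  rw [c1, c2, smul_eq_mul, smul_eq_mul, mul_one, hp] at hdc
  have hppos : 0 < p := by have := R.k2; omega
  have : p * (3 * fx X z) = p * (6 + l) := by
    calc p * (3 * fx X z) = 3 * p * fx X z := by ring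
      _ = _ := by rw [hdc]; ring
  have := Nat.eq_of_mul_eq_mul_left hppos this
  omega

end Cfsg.Agent.Lib.FR
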