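import Cfsg.Agent.Lib.FRb

set_option autoImplicit false
set_option linter.all false

namespace Cfsg.Agent.Lib.FR

open MulAction Subgroup

variable {G X : Type*} [Group G] [Finite G] [Finite X] [MulAction G X] {D : X → X → Prop} {K : X → Subgroup G}
  {k h l lam mu : ℕ}

theorem oe_arith {k h l lam mu F : ℕ} (hk1 : h ∣ k - 1) (hk3 : 3 ≤ k) (hmuk : mu < k) (heq : k * k = k + k * lam + l * mu)
    (hmu : 1 ≤ mu) (hl1 : 1 ≤ l) (hF1 : 1 ≤ F) (hF : F ≤ l + 1) (hv : 1 + k + l = F * (l + 2 - F))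
    (h2 : F * k ^ 2 ≤ (1 + k + l - F) * (k + (F - 1) * mu)) (hlam : h ∣ lam) (hhl : h ∣ l) :
    (F - 1) * h ≤ l ∧ k = (F - 1) * (l + 1 - F) := by
  obtain ⟨f1, rfl⟩ : ∃ f1, F = f1 + 1 := ⟨F - 1, by omega⟩
  obtain ⟨f2, hf2⟩ : ∃ f2, l = f1 + f2 := ⟨l - f1, by omega⟩
  have e1 : l + 2 - (f1 + 1) = f2 + 1 := by omega
  have e2 : l + 1 - (f1 + 1) = f2 := by omega
  have e3 : f1 + 1 - 1 = f1 := by omega
  rw [e1] at hv
  rw [e2, e3]
  have hk : k = f1 * f2 := by
    have : 1 + k + (f1 + f2) = f1 * f2 + f1 + f2 + 1 := by rw [← hf2, hv]; ring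
    omega
  have e4 : 1 + k + l - (f1 + 1) = (f1 + 1) * f2 := by
    rw [hk, hf2]
    have : 1 + f1 * f2 + (f1 + f2) = (f1 + 1) * f2 + (f1 + 1) := by ring
    omega
  rw [e4, e3] at h2
  have h3 : k ^ 2 ≤ f2 * (k + f1 * mu) := by
    have : (f1 + 1) * k ^ 2 ≤ (f1 + 1) * (f2 * (k + f1 * mu)) := by
      calc (f1 + 1) * k ^ 2 ≤ (f1 + 1) * f2 * (k + f1 * mu) := h2
        _ = _ := by ring
    exact Nat.le_of_mul_le_mul_left this (by omega)
  have hf1f2 : 0 < f1 * f2 := by rw [← hk]; omega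
  have hf1 : 0 < f1 := Nat.pos_of_mul_pos_right hf1f2
  have hf2' : 0 < f2 := Nat.pos_of_mul_pos_left hf1f2
  have h4 : k ≤ f2 + mu := by
    have : (f1 * f2) * k ≤ (f1 * f2) * (f2 + mu) := by
      calc (f1 * f2) * k = k ^ 2 := by rw [← hk]; ring
        _ ≤ f2 * (k + f1 * mu) := h3
        _ = f2 * (f1 * f2 + f1 * mu) := by rw [← hk]
        _ = _ := by ring
    exact Nat.le_of_mul_le_mul_left this hf1f2
  -- m
  have hlm : 0 < l * mu := Nat.mul_pos hl1 hmu
  have hlk : lam + 1 < k := by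
    by_contra hcon
    have : k ≤ lam + 1 := by omega
    have : k * k ≤ k * (lam + 1) := Nat.mul_le_mul_left k this
    have e : k * (lam + 1) = k + k * lam := by ring
    omega
  obtain ⟨m, hm⟩ : ∃ m, k = 1 + lam + m := ⟨k - 1 - lam, by omega⟩
  have hkm : k * m = l * mu := by
    have : k * k = k + k * lam + k * m := by
      calc k * k = k * (1 + lam + m) := by rw [← hm]
        _ = _ := by ring
    omega
  have hml : m < l := by
    by_contra hcon
    have h5 : l ≤ m := by omega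
    have h6 : k * l ≤ k * m := Nat.mul_le_mul_left k h5
    have h7 : l * mu < l * k := Nat.mul_lt_mul_of_pos_left hmuk hl1
    rw [hkm] at h6
    rw [mul_comm k l] at h6
    omega
  have hhm : h ∣ m := by
    have : k - 1 = lam + m := by omega
    rw [this] at hk1
    exact (Nat.dvd_add_right hlam).mp hk1
  obtain ⟨n, hn⟩ : ∃ n, l = m + n := ⟨l - m, by omega⟩
  have hhn : h ∣ n := by
    rw [hn] at hhl
    exact (Nat.dvd_add_right hhm).mp hhl
  have hnpos : 0 < n := by omega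
  have hhn' : h ≤ n := Nat.le_of_dvd hnpos hhn
  have h8 : k * n + l * mu = l * k := by
    rw [← hkm]
    calc k * n + k * m = k * (m + n) := by ring
      _ = l * k := by rw [← hn]; ring
  have h9 : l * k ≤ l * (f2 + mu) := Nat.mul_le_mul_left l h4
  have h10 : k * n ≤ l * f2 := by
    have : l * (f2 + mu) = l * f2 + l * mu := by ring
    omega
  have h11 : f2 * (f1 * h) ≤ f2 * l := by
    calc f2 * (f1 * h) = k * h := by rw [hk]; ring
      _ ≤ k * n := Nat.mul_le_mul_left k hhn'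
      _ ≤ l * f2 := h10
      _ = f2 * l := by ring
  exact ⟨Nat.le_of_mul_le_mul_left h11 hf2', hk⟩

theorem oe_mod3 (A B : ℕ) (hmod : (A + B) % 3 = 0) (hmod2 : (A * B) % 3 = 1) : False := by
  have hA : A % 3 = 0 ∨ A % 3 = 1 ∨ A % 3 = 2 := by omega
  rw [Nat.mul_mod] at hmod2
  rcases hA with h | h | h
  · rw [h, Nat.zero_mul] at hmod2
    omega
  · have hB : B % 3 = 2 := by omega
    rw [h, hB] at hmod2
    omega
  · have hB : B % 3 = 1 := by omega
    rw [h, hB] at hmod2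
    omega

set_option maxHeartbeats 2000000 in
theorem odd_end31 (R : Rk G X D K k h l lam mu) (hodd : Odd h)
    (hpar : ∀ a c, a ≠ c → ¬ D a c → ∀ g : G, g • a = a → g • c = c → g ∈ K a) (hk : Even k)
    (h1 : ∀ (a : X) (u : G), u ∈ Za K a → u ≠ 1 → fx X u ≤ l + 1 ∧ 1 + k + l = fx X u * (l + 2 - fx X u))
    (h2 : ∀ (a : X) (u : G), u ∈ Za K a → u ≠ 1 → fx X u * k ^ 2 ≤ (1 + k + l - fx X u) * (k + (fx X u - 1) * mu))
    (h3 : ∀ a : X, ∃ z : ℕ, Nat.card (Za K a) = 2 * z ∧ ∑ᶠ u ∈ {u | u ∈ Za K a ∧ u ≠ 1}, (fx X u - 1) = l * (z - 1))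
    (h4 : h ∣ lam) (h5 : ∀ a c, a ≠ c → ¬ D a c → l * Nat.card ↥(stabilizer G a ⊓ stabilizer G c) = k * h) : False := by
  classical
  have hk3 := R.k2
  have hh2 := R.h2
  have hl1 := R.l1
  obtain ⟨a⟩ : Nonempty X := by
    have : 0 < Nat.card X := by rw [R.cX]; omega
    exact (Nat.card_pos_iff.mp this).1
  obtain ⟨⟨c, hca, hDc⟩⟩ : Nonempty {c // c ≠ a ∧ ¬ D a c} := by
    have : 0 < Nat.card {c // c ≠ a ∧ ¬ D a c} := by rw [R.cN a]; omega
    exact (Nat.card_pos_iff.mp this).1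
  obtain ⟨⟨b, hDb⟩⟩ : Nonempty {b // D a b} := by
    have : 0 < Nat.card {b // D a b} := by rw [R.cD a]; omega
    exact (Nat.card_pos_iff.mp this).1
  -- h ∣ l
  have hcop : Nat.Coprime h k := by
    obtain ⟨t, ht⟩ := R.hk
    have : k = h * t + 1 := by omega
    rw [this]
    simp
  have hs : Nat.card ↥(stabilizer G a ⊓ stabilizer G c) ∣ k := by
    rw [← R.Kcard a]
    apply Subgroup.card_dvd_of_le
    intro g hg
    exact hpar a c hca.symm hDc g hg.1 hg.2
  have hhl : h ∣ l := by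
    have e := h5 a c hca.symm hDc
    have hc2 : Nat.Coprime h (Nat.card ↥(stabilizer G a ⊓ stabilizer G c)) := Nat.Coprime.coprime_dvd_right hs hcop
    exact hc2.dvd_of_dvd_mul_right (Dvd.intro_left k e.symm)
  obtain ⟨z, hz, hsum⟩ := h3 a
  have hfin : (Za K a).Finite := Set.toFinite _
  have h1Z : (1 : G) ∈ Za K a := ⟨one_mem _, one_pow 2, fun x _ => by simp⟩
  have hz1 : 1 ≤ z := by
    have : 0 < Nat.card (Za K a) := Nat.card_pos_iff.mpr ⟨⟨⟨1, h1Z⟩⟩, inferInstance⟩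
    omega
  have hfx1 : ∀ u ∈ Za K a, 1 ≤ fx X u := by
    intro u hu
    have : 0 < fx X u := Nat.card_pos_iff.mpr ⟨⟨⟨a, R.Kst a u hu.1⟩⟩, inferInstance⟩
    omega
  have hncard : (Za K a).ncard = 2 * z := by rw [← hz]; rfl
  have hcardS : ({u | u ∈ Za K a ∧ u ≠ 1} : Set G).ncard = 2 * z - 1 := by
    have : ({u | u ∈ Za K a ∧ u ≠ 1} : Set G) = Za K a \ {1} := by
      ext u; simp
    rw [this, Set.ncard_diff_singleton_of_mem h1Z, hncard]
  have hSfin : ({u | u ∈ Za K a ∧ u ≠ 1} : Set G).Finite := Set.toFinite _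
  -- a nontrivial element
  obtain ⟨u0, hu0, hu01⟩ : ∃ u, u ∈ Za K a ∧ u ≠ 1 := by
    have : ({u | u ∈ Za K a ∧ u ≠ 1} : Set G).ncard ≠ 0 := by rw [hcardS]; omega
    obtain ⟨u, hu⟩ := Set.nonempty_of_ncard_ne_zero this
    exact ⟨u, hu.1, hu.2⟩
  -- z ≥ 2
  have hz2 : 2 ≤ z := by
    by_contra hcon
    have hz1' : z = 1 := by omega
    rw [hz1'] at hcardS
    obtain ⟨w, hw⟩ := Set.ncard_eq_one.mp hcardS
    have hall : ∀ u, u ∈ Za K a → u ≠ 1 → u = w := by
      intro u hu hu1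
      have : u ∈ ({u | u ∈ Za K a ∧ u ≠ 1} : Set G) := ⟨hu, hu1⟩
      rw [hw] at this
      exact this
    -- g in G_ab
    have hHc := R.Hcard a b hDb
    obtain ⟨g, hg, hg1⟩ : ∃ g ∈ stabilizer G a ⊓ stabilizer G b, g ≠ 1 := by
      by_contra hcon
      push Not at hcon
      have : stabilizer G a ⊓ stabilizer G b = ⊥ := (Subgroup.eq_bot_iff_forall _).mpr hcon
      rw [this, Subgroup.card_bot] at hHc
      omega
    have hga : g • a = a := hg.1
    have hgb : g • b = b := hg.2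
    have hKg : ∀ x ∈ K a, g * x * g⁻¹ ∈ K a := by
      intro x hx
      have := R.Kconj g a x hx
      rwa [hga] at this
    have hga' : g⁻¹ • a = a := by rw [inv_smul_eq_iff, hga]
    have hKg' : ∀ x ∈ K a, g⁻¹ * x * g ∈ K a := by
      intro x hx
      have := R.Kconj g⁻¹ a x hx
      rwa [hga', inv_inv] at this
    have hconj : g * u0 * g⁻¹ ∈ Za K a := by
      refine ⟨hKg u0 hu0.1, ?_, ?_⟩
      · rw [conj_pow, hu0.2.1]; group
      · intro x hx
        have h6 := hu0.2.2 _ (hKg' x hx)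
        calc g * u0 * g⁻¹ * x = g * (u0 * (g⁻¹ * x * g)) * g⁻¹ := by group
          _ = g * ((g⁻¹ * x * g) * u0) * g⁻¹ := by rw [h6]
          _ = x * (g * u0 * g⁻¹) := by group
    have hne : g * u0 * g⁻¹ ≠ 1 := by
      intro h7
      apply hu01
      rw [mul_inv_eq_one] at h7
      exact mul_left_cancel (h7.trans (mul_one g).symm)
    have h8 : g * u0 * g⁻¹ = u0 := (hall _ hconj hne).trans (hall _ hu0 hu01).symm
    have h9 : g * u0 = u0 * g := by
      rw [mul_inv_eq_iff_eq_mul] at h8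
      exact h8
    apply hg1
    have hub : D a (u0 • b) := by
      have := R.inv u0 a b hDb
      rwa [R.Kst a u0 hu0.1] at this
    refine R.Hfree a b (u0 • b) g hDb hub ?_ hga hgb ?_
    · intro hcon
      exact hu01 (R.Kfree a b u0 hu0.1 hDb hcon.symm)
    · rw [← mul_smul, h9, mul_smul, hgb]
  -- bound
  have hbound : ∀ u, u ∈ Za K a → u ≠ 1 → (fx X u - 1) * h ≤ l ∧ k = (fx X u - 1) * (l + 1 - fx X u) := by
    intro u hu hu1
    exact oe_arith R.hk hk3 R.mulk R.eq1 R.mupos hl1 (hfx1 u hu) (h1 a u hu hu1).1 (h1 a u hu hu1).2 (h2 a u hu hu1) h4 hhl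
  obtain ⟨q, hq⟩ := hhl
  have hqpos : 0 < q := by
    rcases Nat.eq_zero_or_pos q with h0 | h0
    · rw [h0, mul_zero] at hq; omega
    · exact h0
  have hle : ∀ u, u ∈ Za K a → u ≠ 1 → fx X u - 1 ≤ q := by
    intro u hu hu1
    have h6 := (hbound u hu hu1).1
    rw [hq, mul_comm h q] at h6
    exact Nat.le_of_mul_le_mul_right h6 (by omega)
  rw [finsum_mem_eq_finite_toFinset_sum _ hSfin] at hsum
  have hsumle : ∑ u ∈ hSfin.toFinset, (fx X u - 1) ≤ hSfin.toFinset.card • q := by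
    apply Finset.sum_le_card_nsmul
    intro u hu
    rw [Set.Finite.mem_toFinset] at hu
    exact hle u hu.1 hu.2
  rw [hsum, ← Set.ncard_eq_toFinset_card _ hSfin, hcardS, smul_eq_mul, hq] at hsumle
  have h12 : h * (z - 1) ≤ 2 * z - 1 := by
    have : q * (h * (z - 1)) ≤ q * (2 * z - 1) := by
      calc q * (h * (z - 1)) = h * q * (z - 1) := by ring
        _ ≤ (2 * z - 1) * q := hsumle
        _ = _ := by ring
    exact Nat.le_of_mul_le_mul_left this hqpos
  have hh3 : h ≤ 3 := by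
    by_contra hcon
    have : 4 * (z - 1) ≤ h * (z - 1) := Nat.mul_le_mul_right _ (by omega)
    omega
  have hh : h = 3 := by
    obtain ⟨t, ht⟩ := hodd
    omega
  -- contradiction mod 3
  obtain ⟨-, hkf⟩ := hbound u0 hu0 hu01
  have hF := (h1 a u0 hu0 hu01).1
  have hF1 := hfx1 u0 hu0
  obtain ⟨t, ht⟩ := R.hk
  rw [hh] at ht hq
  have hsum3 : (fx X u0 - 1) + (l + 1 - fx X u0) = 3 * q := by omega
  have hk' : (fx X u0 - 1) * (l + 1 - fx X u0) = 3 * t + 1 := by rw [← hkf]; omega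
  generalize fx X u0 - 1 = A at hsum3 hk'
  generalize l + 1 - fx X u0 = B at hsum3 hk'
  have hmod : (A + B) % 3 = 0 := by rw [hsum3]; omega
  have hmod2 : (A * B) % 3 = 1 := by rw [hk']; omega
  exact oe_mod3 _ _ hmod hmod2

end Cfsg.Agent.Lib.FR
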