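import Mathlib
import Cfsg.Agent.Lib.FRa

/-! S2207-ORB (helper19): the count of `al` in the case `s` even, `lam = 0`; core with the facts of INV and KC as hypotheses -/

set_option autoImplicit false
set_option linter.all false

namespace Cfsg.Agent.Lib.FR

open MulAction Subgroup

section orbc

variable {G X : Type*} [Group G] [Finite G] [Finite X] [MulAction G X] {D : X → X → Prop} {K : X → Subgroup G}
  {k h l lam mu : ℕ}

theorem orb_D_iff (R : Rk G X D K k h l lam mu) (g : G) (a b : X) : D (g • a) (g • b) ↔ D a b := by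
  constructor
  · intro H
    have := R.inv g⁻¹ _ _ H
    simpa using this
  · exact R.inv g a b

theorem orb_K_iff (R : Rk G X D K k h l lam mu) (g x : G) (a : X) : g * x * g⁻¹ ∈ K (g • a) ↔ x ∈ K a := by
  constructor
  · intro H
    have := R.Kconj g⁻¹ _ _ H
    simpa [mul_assoc] using this
  · exact R.Kconj g a x

theorem orb_al_conj (R : Rk G X D K k h l lam mu) (g x : G) : al D (g * x * g⁻¹) = al D x := by
  unfold al
  symm
  refine Nat.card_congr ⟨fun c => ⟨g • c.1, ?_⟩, fun c => ⟨g⁻¹ • c.1, ?_⟩, ?_, ?_⟩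
  · have := c.2
    rw [show (g * x * g⁻¹) • g • c.1 = g • (x • c.1) by simp [mul_smul], orb_D_iff R]
    exact this
  · have := c.2
    rw [← orb_D_iff R g]
    simpa [mul_smul] using this
  · intro c; simp
  · intro c; simp

/-- free action of `K a` away from `a` -/
theorem orb_free (R : Rk G X D K k h l lam mu) (hkc : ∀ (a c : X) (x : G), x ∈ K a → x • c = c → x ∈ K c)
    (ti : TI K) {a c : X} (hac : a ≠ c) {x y : G} (hx : x ∈ K a) (hy : y ∈ K a) (h : x • c = y • c) : x = y := by
  have h1 : (y⁻¹ * x) • c = c := by rw [mul_smul, h, inv_smul_smul]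
  have h2 : y⁻¹ * x ∈ K a := mul_mem (inv_mem hy) hx
  have h3 := ti a c hac _ h2 (hkc a c _ h2 h1)
  exact (inv_mul_eq_one.1 h3).symm

variable [Fintype G] [Fintype X] [DecidableEq G] [DecidableEq X]

open scoped Classical in
theorem orb_swap (S : Finset G) : ∑ x ∈ S, al D x = ∑ c : X, (S.filter fun x => D c (x • c)).card := by
  have h1 : ∀ x : G, al D x = ∑ c : X, if D c (x • c) then 1 else 0 := by
    intro x
    unfold al
    rw [Nat.card_eq_fintype_card, Fintype.card_subtype, Finset.card_filter]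
  simp only [h1, Finset.card_filter]
  rw [Finset.sum_comm]

/-- involutions of `G_a` form a coset of `K a` -/
theorem orb_coset (R : Rk G X D K k h l lam mu)
    (hinv : ∀ (a : X) (z : G), z ∈ IC (G := G) X → z • a = a → (∀ x ∈ K a, z * x * z⁻¹ = x⁻¹) ∧ ∃! b, D a b ∧ z • b = b)
    (hnum : ∀ a : X, Nat.card {z // z ∈ IC (G := G) X ∧ z • a = a} = k)
    {a : X} {z : G} (hz : z ∈ IC (G := G) X) (hza : z • a = a) (z' : G) :
    (z' ∈ IC (G := G) X ∧ z' • a = a) ↔ z' * z⁻¹ ∈ K a := by
  have hz2 : z ^ 2 = 1 := hz.1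
  have hzi : z⁻¹ = z := by rw [inv_eq_iff_mul_eq_one, ← sq, hz2]
  have key : ∀ x ∈ K a, (x * z ∈ IC (G := G) X ∧ (x * z) • a = a) := by
    intro x hx
    have h1 := (hinv a z hz hza).1 x hx
    have h2 : (x * z) • a = a := by rw [mul_smul, hza, R.Kst a x hx]
    refine ⟨⟨?_, ?_, a, h2⟩, h2⟩
    · rw [sq]
      calc x * z * (x * z) = x * (z * x * z⁻¹) * (z ^ 2) := by rw [sq]; group
        _ = 1 := by rw [h1, hz2]; group
    · intro h3
      have h4 : z = x⁻¹ := (inv_eq_of_mul_eq_one_right h3).symm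
      obtain ⟨b, ⟨hb1, hb2⟩, -⟩ := (hinv a z hz hza).2
      exact hz.2.1 (R.Kfree a b z (h4 ▸ inv_mem hx) hb1 hb2)
  constructor
  · intro h1
    -- surjectivity by counting
    let f : K a → {z // z ∈ IC (G := G) X ∧ z • a = a} := fun x => ⟨x.1 * z, key x.1 x.2⟩
    have hf : Function.Injective f := by
      intro x y hxy
      have := congrArg Subtype.val hxy
      exact Subtype.ext (mul_right_cancel this)
    have hb : Function.Bijective f := by
      rw [Nat.bijective_iff_injective_and_card]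
      exact ⟨hf, by rw [R.Kcard, hnum]⟩
    obtain ⟨x, hx⟩ := hb.2 ⟨z', h1⟩
    have := congrArg Subtype.val hx
    simp only [f] at this
    rw [← this, mul_inv_cancel_right]
    exact x.2
  · intro h1
    have := key _ h1
    rwa [inv_mul_cancel_right] at this

/-- each `c ≠ a` is fixed by an involution of `G_a` -/
theorem orb_fix (R : Rk G X D K k h l lam mu)
    (hex : ∀ a b : X, D a b → ∃ z : G, z ^ 2 = 1 ∧ z ≠ 1 ∧ z • a = a ∧ z • b = b) {s : ℕ} (hse : Even s)
    (hs : ∀ a c, a ≠ c → ¬ D a c → Nat.card ↥(stabilizer G a ⊓ stabilizer G c) = s)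
    {a c : X} (hac : a ≠ c) : ∃ z : G, z ∈ IC (G := G) X ∧ z • a = a ∧ z • c = c := by
  by_cases hD : D a c
  · obtain ⟨z, h1, h2, h3, h4⟩ := hex a c hD
    exact ⟨z, ⟨h1, h2, a, h3⟩, h3, h4⟩
  · have h1 := hs a c hac hD
    have h2 : 2 ∣ Nat.card ↥(stabilizer G a ⊓ stabilizer G c) := by rw [h1]; exact hse.two_dvd
    obtain ⟨z, hz⟩ := exists_prime_orderOf_dvd_card' 2 h2
    have hz2 : z ^ 2 = 1 := by rw [← hz]; exact pow_orderOf_eq_one z
    have hz1 : z ≠ 1 := by
      intro h; rw [h, orderOf_one] at hz; omega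
    have h3 : (z : G) • a = a := z.2.1
    have h4 : (z : G) • c = c := z.2.2
    refine ⟨z, ⟨?_, ?_, a, h3⟩, h3, h4⟩
    · exact_mod_cast hz2
    · intro h; exact hz1 (Subtype.ext h)

open scoped Classical in
/-- `x ↦ x z_c` : equal numbers in `K a` and in the involutions of `G_a` -/
theorem orb_eqc (R : Rk G X D K k h l lam mu)
    (hinv : ∀ (a : X) (z : G), z ∈ IC (G := G) X → z • a = a → (∀ x ∈ K a, z * x * z⁻¹ = x⁻¹) ∧ ∃! b, D a b ∧ z • b = b)
    (hnum : ∀ a : X, Nat.card {z // z ∈ IC (G := G) X ∧ z • a = a} = k)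
    (hex : ∀ a b : X, D a b → ∃ z : G, z ^ 2 = 1 ∧ z ≠ 1 ∧ z • a = a ∧ z • b = b) {s : ℕ} (hse : Even s)
    (hs : ∀ a c, a ≠ c → ¬ D a c → Nat.card ↥(stabilizer G a ⊓ stabilizer G c) = s) (a c : X) :
    ((Finset.univ.filter fun x : G => x ∈ K a).filter fun x => D c (x • c)).card =
    ((Finset.univ.filter fun z : G => z ∈ IC (G := G) X ∧ z • a = a).filter fun x => D c (x • c)).card := by
  by_cases hac : a = c
  · subst hac
    rw [Finset.filter_false_of_mem, Finset.filter_false_of_mem]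
    · intro x hx
      simp only [Finset.mem_filter, Finset.mem_univ, true_and] at hx
      rw [hx.2]; exact R.irr a
    · intro x hx
      simp only [Finset.mem_filter, Finset.mem_univ, true_and] at hx
      rw [R.Kst a x hx]; exact R.irr a
  · obtain ⟨z, hz, hza, hzc⟩ := orb_fix R hex hse hs hac
    refine Finset.card_bij' (fun x _ => x * z) (fun y _ => y * z⁻¹) ?_ ?_ ?_ ?_
    · intro x hx
      simp only [Finset.mem_filter, Finset.mem_univ, true_and] at hx ⊢
      refine ⟨?_, ?_⟩
      · rw [orb_coset R hinv hnum hz hza]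
        rw [mul_inv_cancel_right]; exact hx.1
      · rw [mul_smul, hzc]; exact hx.2
    · intro x hx
      simp only [Finset.mem_filter, Finset.mem_univ, true_and] at hx ⊢
      refine ⟨?_, ?_⟩
      · exact (orb_coset R hinv hnum hz hza x).1 hx.1
      · have : z⁻¹ • c = c := by rw [inv_smul_eq_iff, hzc]
        rw [mul_smul, this]; exact hx.2
    · intro x hx; simp
    · intro x hx; simp

open scoped Classical in
/-- the set `U_c` -/
noncomputable def orbU (D : X → X → Prop) (K : X → Subgroup G) (a c : X) : Finset G :=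
  (Finset.univ.filter fun x : G => x ∈ K a).filter fun x => D c (x • c)

theorem mem_orbU {a c : X} {x : G} : x ∈ orbU D K a c ↔ x ∈ K a ∧ D c (x • c) := by
  simp [orbU]

/-- for a neighbour `c` of `a` there are none -/
theorem orbU_D (R : Rk G X D K k h l 0 mu) {a c : X} (hD : D a c) : orbU D K a c = ∅ := by
  rw [Finset.eq_empty_iff_forall_notMem]
  intro x hx
  rw [mem_orbU] at hx
  have h1 := R.clam a c hD
  have h2 : D a (x • c) := by
    have := R.inv x a c hD
    rwa [R.Kst a x hx.1] at this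
  rw [Nat.card_eq_zero] at h1
  rcases h1 with h1 | h1
  · exact h1.elim ⟨x • c, h2, hx.2⟩
  · exact (not_finite {c_1 // D a c_1 ∧ D c c_1}).elim

theorem orbU_self (R : Rk G X D K k h l lam mu) (a : X) : orbU D K a a = ∅ := by
  rw [Finset.eq_empty_iff_forall_notMem]
  intro x hx
  rw [mem_orbU] at hx
  have h1 := hx.2
  rw [R.Kst a x hx.1] at h1
  exact R.irr a h1

theorem orbU_const (R : Rk G X D K k h l lam mu) {a c a' c' : X} (hac : a ≠ c) (hN : ¬ D a c) (hac' : a' ≠ c')
    (hN' : ¬ D a' c') : (orbU D K a c).card = (orbU D K a' c').card := by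
  obtain ⟨g, hg1, hg2⟩ := R.trN a c a' c' hac hN hac' hN'
  refine Finset.card_bij' (fun x _ => g * x * g⁻¹) (fun y _ => g⁻¹ * y * g) ?_ ?_ ?_ ?_
  · intro x hx
    rw [mem_orbU] at hx ⊢
    rw [← hg1, ← hg2, orb_K_iff R]
    refine ⟨hx.1, ?_⟩
    rw [show (g * x * g⁻¹) • g • c = g • (x • c) by simp [mul_smul], orb_D_iff R]
    exact hx.2
  · intro y hy
    rw [mem_orbU] at hy ⊢
    constructor
    · rw [← orb_K_iff R g, hg1]
      simpa [mul_assoc] using hy.1
    · rw [← orb_D_iff R g]
      simpa [mul_smul, hg2] using hy.2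
  · intro x hx; group
  · intro x hx; group

theorem orbU_le (R : Rk G X D K k h l lam mu) (a c : X) : (orbU D K a c).card ≤ k - 1 := by
  classical
  have h1 : orbU D K a c ⊆ (Finset.univ.filter fun x : G => x ∈ K a).erase 1 := by
    intro x hx
    rw [mem_orbU] at hx
    rw [Finset.mem_erase]
    refine ⟨?_, by simpa using hx.1⟩
    rintro rfl
    rw [one_smul] at hx
    exact R.irr c hx.2
  refine (Finset.card_le_card h1).trans ?_
  rw [Finset.card_erase_of_mem (by simpa using one_mem (K a))]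
  have : (Finset.univ.filter fun x : G => x ∈ K a).card = k := by
    rw [← R.Kcard a, Nat.card_eq_fintype_card, Fintype.card_subtype]
  omega

/-- paths of length two -/
theorem orbU_path (R : Rk G X D K k h l 0 mu) (hkc : ∀ (a c : X) (x : G), x ∈ K a → x • c = c → x ∈ K c)
    (ti : TI K) {a c : X} (hac : a ≠ c) (hN : ¬ D a c) :
    (orbU D K a c).card * ((orbU D K a c).card - 1) ≤ mu * (k - 1 - (orbU D K a c).card) := by
  classical
  set U := orbU D K a c with hU
  set KF : Finset G := Finset.univ.filter fun x : G => x ∈ K a with hKF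
  have hKc : KF.card = k := by rw [← R.Kcard a, Nat.card_eq_fintype_card, Fintype.card_subtype]
  -- the pairs
  set P : Finset (G × G) := (U ×ˢ U).filter fun q => q.1 * q.2 ≠ 1 with hP
  set T : Finset G := (KF.erase 1) \ U with hT
  have hTc : T.card = k - 1 - U.card := by
    rw [hT, Finset.card_sdiff_of_subset, Finset.card_erase_of_mem (by simp [hKF]), hKc]
    intro x hx
    rw [hU, mem_orbU] at hx
    rw [Finset.mem_erase]
    refine ⟨?_, by simpa [hKF] using hx.1⟩
    rintro rfl
    rw [one_smul] at hx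
    exact R.irr c hx.2
  have hPc : U.card * (U.card - 1) ≤ P.card := by
    have h1 : (U ×ˢ U).card = P.card + ((U ×ˢ U).filter fun q => ¬ (q.1 * q.2 ≠ 1)).card := by
      rw [hP, Finset.card_filter_add_card_filter_not]
    have h2 : ((U ×ˢ U).filter fun q => ¬ (q.1 * q.2 ≠ 1)).card ≤ U.card := by
      refine Finset.card_le_card_of_injOn (fun q => q.1) ?_ ?_
      · intro q hq
        simp only [Finset.coe_filter, Finset.mem_product, Set.mem_setOf_eq] at hq
        exact hq.1.1
      · intro q hq q' hq' hqq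
        simp only [Finset.coe_filter, Finset.mem_product, Set.mem_setOf_eq, not_not] at hq hq' hqq
        refine Prod.ext hqq ?_
        have e1 := hq.2
        have e2 := hq'.2
        rw [hqq] at e1
        rw [← inv_eq_of_mul_eq_one_right e1, ← inv_eq_of_mul_eq_one_right e2]
    rw [Finset.card_product] at h1
    have h3 : U.card * (U.card - 1) = U.card * U.card - U.card := by rw [Nat.mul_sub, mul_one]
    omega
  have hmaps : ∀ q ∈ P, q.1 * q.2 ∈ T := by
    intro q hq
    simp only [hP, Finset.mem_filter, Finset.mem_product] at hq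
    obtain ⟨⟨h1, h2⟩, h3⟩ := hq
    rw [hU, mem_orbU] at h1 h2
    rw [hT, Finset.mem_sdiff, Finset.mem_erase]
    refine ⟨⟨h3, by simpa [hKF] using mul_mem h1.1 h2.1⟩, ?_⟩
    intro h4
    rw [hU, mem_orbU] at h4
    have h5 : D (q.1 • c) ((q.1 * q.2) • c) := by rw [mul_smul, orb_D_iff R]; exact h2.2
    have h6 := R.clam c (q.1 • c) h1.2
    rw [Nat.card_eq_zero] at h6
    rcases h6 with h6 | h6
    · exact h6.elim ⟨(q.1 * q.2) • c, h4.2, h5⟩
    · exact (not_finite {c_1 // D c c_1 ∧ D (q.1 • c) c_1}).elim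
  refine hPc.trans ?_
  rw [Finset.card_eq_sum_card_fiberwise hmaps, ← hTc]
  rw [mul_comm, ← smul_eq_mul]
  refine Finset.sum_le_card_nsmul _ _ _ ?_
  intro g hg
  -- the fibre of `g`
  rw [hT, Finset.mem_sdiff, Finset.mem_erase] at hg
  obtain ⟨⟨hg1, hg2⟩, hg3⟩ := hg
  have hgK : g ∈ K a := by simpa [hKF] using hg2
  have hne : c ≠ g • c := by
    intro h
    exact hg1 (orb_free R hkc ti hac hgK (one_mem _) (by rw [one_smul]; exact h.symm))
  have hnD : ¬ D c (g • c) := by
    intro h
    exact hg3 (by rw [hU, mem_orbU]; exact ⟨hgK, h⟩)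
  have hmu := R.cmu c (g • c) hne hnD
  rw [← hmu, Nat.card_eq_fintype_card, Fintype.card_subtype]
  refine Finset.card_le_card_of_injOn (fun q => q.1 • c) ?_ ?_
  · intro q hq
    simp only [hP, Finset.coe_filter, Finset.mem_filter, Finset.mem_product, Set.mem_setOf_eq] at hq
    obtain ⟨⟨⟨h1, h2⟩, h3⟩, h4⟩ := hq
    rw [hU, mem_orbU] at h1 h2
    simp only [Finset.coe_filter, Finset.mem_univ, true_and, Set.mem_setOf_eq]
    refine ⟨h1.2, ?_⟩
    rw [← h4, mul_smul, orb_D_iff R]
    exact R.symm _ _ h2.2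
  · intro q hq q' hq' hqq
    simp only [hP, Finset.coe_filter, Finset.mem_filter, Finset.mem_product, Set.mem_setOf_eq] at hq hq' hqq
    obtain ⟨⟨⟨h1, h2⟩, h3⟩, h4⟩ := hq
    obtain ⟨⟨⟨h1', h2'⟩, h3'⟩, h4'⟩ := hq'
    rw [hU, mem_orbU] at h1 h1'
    have e1 : q.1 = q'.1 := orb_free R hkc ti hac h1.1 h1'.1 hqq
    refine Prod.ext e1 ?_
    have := h4.trans h4'.symm
    rw [e1] at this
    exact mul_left_cancel this

open scoped Classical in
theorem orb_sum (R : Rk G X D K k h l 0 mu) (a : X) (u : ℕ)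
    (hu : ∀ c : X, a ≠ c → ¬ D a c → (orbU D K a c).card = u) :
    ∑ x ∈ (Finset.univ.filter fun x : G => x ∈ K a), al D x = l * u := by
  rw [orb_swap]
  have h1 : ∀ c : X, ((Finset.univ.filter fun x : G => x ∈ K a).filter fun x => D c (x • c)).card =
      if a ≠ c ∧ ¬ D a c then u else 0 := by
    intro c
    have h0 : ((Finset.univ.filter fun x : G => x ∈ K a).filter fun x => D c (x • c)) = orbU D K a c := rfl
    rw [h0]
    split_ifs with hc
    · exact hu c hc.1 hc.2
    · by_cases hac : a = c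
      · subst hac; rw [orbU_self R]; rfl
      · have : D a c := by
          by_contra hD; exact hc ⟨hac, hD⟩
        rw [orbU_D R this]; rfl
  rw [Finset.sum_congr rfl fun c _ => h1 c, ← Finset.sum_filter, Finset.sum_const, smul_eq_mul]
  congr 1
  rw [← R.cN a, Nat.card_eq_fintype_card, Fintype.card_subtype]
  congr 1
  ext c
  simp only [Finset.mem_filter, Finset.mem_univ, true_and]
  rw [ne_comm]

end orbc

/-- ORB with the facts of INV and KC as hypotheses -/
theorem orb_core {G X : Type*} [Group G] [Finite G] [Finite X] [MulAction G X] {D : X → X → Prop} {K : X → Subgroup G}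
    {k h l lam mu : ℕ} (R : Rk G X D K k h l lam mu) (ti : TI K) {r s : ℕ} (hlr : l = r * k) (hrs : h = r * s) (hse : Even s)
    (hspos : 0 < s)
    (hs : ∀ a c, a ≠ c → ¬ D a c → Nat.card ↥(stabilizer G a ⊓ stabilizer G c) = s) (hlam : lam = 0)
    (hkc : ∀ (a c : X) (x : G), x ∈ K a → x • c = c → x ∈ K c)
    (hinv : ∀ (a : X) (z : G), z ∈ IC (G := G) X → z • a = a → (∀ x ∈ K a, z * x * z⁻¹ = x⁻¹) ∧ ∃! b, D a b ∧ z • b = b)
    (hnum : ∀ a : X, Nat.card {z // z ∈ IC (G := G) X ∧ z • a = a} = k)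
    (hex : ∀ a b : X, D a b → ∃ z : G, z ^ 2 = 1 ∧ z ≠ 1 ∧ z • a = a ∧ z • b = b)
    (hconj : ∀ y z : G, y ∈ IC (G := G) X → z ∈ IC (G := G) X → ∃ g : G, g * y * g⁻¹ = z) :
    ∃ u : ℕ, u * (u - 1) ≤ mu * (k - 1 - u) ∧ u ≤ k - 1 ∧ (∀ z ∈ IC (G := G) X, al D z = r * u) ∧
      (h = k - 1 → ∃ a' : ℕ, r * u = (k - 1) * a' ∧ ∀ (a : X), ∀ x ∈ K a, x ≠ 1 → al D x = k * a' ∧ fx X x = 1) := by
  classical
  haveI := Fintype.ofFinite G
  haveI := Fintype.ofFinite X
  subst hlam
  have hk3 := R.k2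
  -- a point and a non-neighbour
  have hX : 0 < Nat.card X := by rw [R.cX]; omega
  obtain ⟨⟨a⟩, -⟩ := Nat.card_pos_iff.1 hX
  have hN : 0 < Nat.card {c // c ≠ a ∧ ¬ D a c} := by rw [R.cN a]; exact R.l1
  obtain ⟨⟨c0, hc0, hc0'⟩, -⟩ := Nat.card_pos_iff.1 hN
  set u := (orbU D K a c0).card with hu
  have huc : ∀ a' c' : X, a' ≠ c' → ¬ D a' c' → (orbU D K a' c').card = u :=
    fun a' c' h1 h2 => orbU_const R h1 h2 (Ne.symm hc0) hc0'
  have hsum := fun a' : X => orb_sum R a' u (huc a')
  -- the involutions of `G_a`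
  have hsumI : ∀ a' : X, ∑ z ∈ (Finset.univ.filter fun z : G => z ∈ IC (G := G) X ∧ z • a' = a'), al D z = l * u := by
    intro a'
    rw [← hsum a', orb_swap, orb_swap]
    exact Finset.sum_congr rfl fun c _ => (orb_eqc R hinv hnum hex hse hs a' c).symm
  have hal : ∀ z ∈ IC (G := G) X, al D z = r * u := by
    intro z hz
    have h1 : ∀ y ∈ (Finset.univ.filter fun z : G => z ∈ IC (G := G) X ∧ z • a = a), al D y = al D z := by
      intro y hy
      simp only [Finset.mem_filter, Finset.mem_univ, true_and] at hy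
      obtain ⟨g, hg⟩ := hconj y z hy.1 hz
      rw [← hg, orb_al_conj R]
    have h2 := hsumI a
    rw [Finset.sum_congr rfl h1, Finset.sum_const, smul_eq_mul] at h2
    have h3 : (Finset.univ.filter fun z : G => z ∈ IC (G := G) X ∧ z • a = a).card = k := by
      rw [← hnum a, Nat.card_eq_fintype_card, Fintype.card_subtype]
    rw [h3, hlr] at h2
    have h4 : k * al D z = k * (r * u) := by rw [h2]; ring
    exact Nat.eq_of_mul_eq_mul_left (by omega) h4
  refine ⟨u, orbU_path R hkc ti (Ne.symm hc0) hc0', orbU_le R a c0, hal, ?_⟩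
  intro hh
  -- transitivity of `G_ab` on `K_a \ 1`
  obtain ⟨⟨b, hab⟩, -⟩ := Nat.card_pos_iff.1 (show 0 < Nat.card {b // D a b} by rw [R.cD a]; omega)
  have hcomm : ∀ g : G, g • a = a → g • b = b → ∀ x ∈ K a, x ≠ 1 → g * x = x * g → g = 1 := by
    intro g ga gb x hx hx1 hgx
    have h1 : D a (x • b) := by
      have := R.inv x a b hab
      rwa [R.Kst a x hx] at this
    have h2 : b ≠ x • b := fun h => hx1 (R.Kfree a b x hx hab h.symm)
    refine R.Hfree a b (x • b) g hab h1 h2 ga gb ?_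
    rw [← mul_smul, hgx, mul_smul, gb]
  have htr : ∀ x ∈ K a, x ≠ 1 → ∀ y ∈ K a, y ≠ 1 → ∃ g : G, g * x * g⁻¹ = y := by
    intro x hx hx1 y hy hy1
    let f : ↥(stabilizer G a ⊓ stabilizer G b) → {y : G // y ∈ K a ∧ y ≠ 1} := fun g =>
      ⟨(g : G) * x * (g : G)⁻¹, by
        have := R.Kconj g a x hx
        rwa [show (g : G) • a = a from g.2.1] at this, by
        intro h
        exact hx1 (by
          have : x = (g : G)⁻¹ * ((g : G) * x * (g : G)⁻¹) * (g : G) := by group
          rw [this, h]; group)⟩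
    have hf : Function.Injective f := by
      intro g g' hgg
      have h1 : (g : G) * x * (g : G)⁻¹ = (g' : G) * x * (g' : G)⁻¹ := congrArg Subtype.val hgg
      have h2 : ((g' : G)⁻¹ * g) * x = x * ((g' : G)⁻¹ * g) := by
        calc ((g' : G)⁻¹ * g) * x = (g' : G)⁻¹ * ((g : G) * x * (g : G)⁻¹) * g := by group
          _ = (g' : G)⁻¹ * ((g' : G) * x * (g' : G)⁻¹) * g := by rw [h1]
          _ = x * ((g' : G)⁻¹ * g) := by group
      have h3 := (g'⁻¹ * g).2
      have h4 : ((g' : G)⁻¹ * g) • a = a := h3.1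
      have h5 : ((g' : G)⁻¹ * g) • b = b := h3.2
      have h6 := hcomm _ h4 h5 x hx hx1 h2
      exact Subtype.ext (inv_mul_eq_one.1 h6).symm
    have hb : Function.Bijective f := by
      rw [Nat.bijective_iff_injective_and_card]
      refine ⟨hf, ?_⟩
      rw [R.Hcard a b hab, hh]
      have e1 : (Finset.univ.filter fun y : G => y ∈ K a ∧ y ≠ 1) = (Finset.univ.filter fun x : G => x ∈ K a).erase 1 := by
        ext y; simp [and_comm]
      rw [Nat.card_eq_fintype_card, Fintype.card_subtype, e1, Finset.card_erase_of_mem (by simpa using one_mem (K a))]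
      rw [← R.Kcard a, Nat.card_eq_fintype_card, Fintype.card_subtype]
    obtain ⟨g, hg⟩ := hb.2 ⟨y, hy, hy1⟩
    exact ⟨g, congrArg Subtype.val hg⟩
  -- a nontrivial element of `K_a`
  obtain ⟨x0, hx0, hx01⟩ : ∃ x ∈ K a, x ≠ 1 := by
    by_contra hcon
    push Not at hcon
    have h1 : K a = ⊥ := by rw [eq_bot_iff]; intro x hx; exact hcon x hx
    have h2 := R.Kcard a
    rw [h1, Subgroup.card_bot] at h2
    omega
  have hal1 : al D (1 : G) = 0 := by
    unfold al
    rw [Nat.card_eq_zero]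
    left
    exact ⟨fun c => R.irr c.1 (by simpa using c.2)⟩
  have hα : (k - 1) * al D x0 = k * (r * u) := by
    have h1 := hsum a
    rw [← Finset.add_sum_erase _ _ (show (1 : G) ∈ (Finset.univ.filter fun x : G => x ∈ K a) by simpa using one_mem (K a)),
      hal1, zero_add] at h1
    rw [Finset.sum_congr rfl (g := fun _ => al D x0), Finset.sum_const, smul_eq_mul,
      Finset.card_erase_of_mem (by simpa using one_mem (K a))] at h1
    · have e2 : (Finset.univ.filter fun x : G => x ∈ K a).card = k := by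
        rw [← R.Kcard a, Nat.card_eq_fintype_card, Fintype.card_subtype]
      rw [e2, hlr] at h1
      rw [h1]; ring
    · intro x hx
      simp only [Finset.mem_erase, Finset.mem_filter, Finset.mem_univ, true_and] at hx
      obtain ⟨g, hg⟩ := htr x hx.2 hx.1 x0 hx0 hx01
      rw [← hg, orb_al_conj R]
  have hcop : Nat.Coprime k (k - 1) := by
    have : k = (k - 1) + 1 := by omega
    rw [Nat.coprime_comm]
    conv_rhs => rw [this]
    simp
  obtain ⟨a', ha'⟩ : k ∣ al D x0 := by
    have h1 : k ∣ (k - 1) * al D x0 := by rw [hα]; exact dvd_mul_right _ _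
    exact hcop.dvd_of_dvd_mul_left h1
  refine ⟨a', ?_, ?_⟩
  · rw [ha'] at hα
    have h1 : k * ((k - 1) * a') = k * (r * u) := by rw [← hα]; ring
    exact (Nat.eq_of_mul_eq_mul_left (by omega) h1).symm
  · intro a1 x hx hx1
    constructor
    · obtain ⟨g, hg⟩ := R.trX a1 a
      have h1 : g * x * g⁻¹ ∈ K a := by
        have := R.Kconj g a1 x hx
        rwa [hg] at this
      have h2 : g * x * g⁻¹ ≠ 1 := by
        intro h3
        exact hx1 (by
          have : x = g⁻¹ * (g * x * g⁻¹) * g := by group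
          rw [this, h3]; group)
      obtain ⟨g', hg'⟩ := htr _ h1 h2 x0 hx0 hx01
      rw [← ha', ← hg', orb_al_conj R, orb_al_conj R]
    · unfold fx
      rw [Nat.card_eq_one_iff_unique]
      refine ⟨⟨fun y z => Subtype.ext ?_⟩, ⟨a1, R.Kst a1 x hx⟩⟩
      have key : ∀ y : X, x • y = y → y = a1 := by
        intro y hy
        by_contra hne
        exact hx1 (ti a1 y (Ne.symm hne) x hx (hkc a1 y x hx hy))
      rw [key y.1 y.2, key z.1 z.2]

end Cfsg.Agent.Lib.FR
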