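import Mathlib
import Cfsg.Agent.Lib.FR_ORBa
import Cfsg.Agent.Lib.FR_INV
import Cfsg.Agent.Lib.FR_KC

/-! S2207-ORB (helper19) -/

set_option autoImplicit false
set_option linter.all false

namespace Cfsg.Agent.Lib.FR

open MulAction Subgroup

variable {G X : Type*} [Group G] [Finite G] [Finite X] [MulAction G X] {D : X → X → Prop} {K : X → Subgroup G}
  {k h l lam mu : ℕ}

theorem orb (R : Rk G X D K k h l lam mu) (hev : Even h) (ti : TI K) {r s : ℕ} (hlr : l = r * k) (hrs : h = r * s) (hse : Even s)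
    (hspos : 0 < s)
    (hs : ∀ a c, a ≠ c → ¬ D a c → Nat.card ↥(stabilizer G a ⊓ stabilizer G c) = s) (hlam : lam = 0) :
    ∃ u : ℕ, u * (u - 1) ≤ mu * (k - 1 - u) ∧ u ≤ k - 1 ∧ (∀ z ∈ IC (G := G) X, al D z = r * u) ∧
      (h = k - 1 → ∃ a' : ℕ, r * u = (k - 1) * a' ∧ ∀ (a : X), ∀ x ∈ K a, x ≠ 1 → al D x = k * a' ∧ fx X x = 1) :=
  orb_core R ti hlr hrs hse hspos hs hlam (fun a c x hx hc => kc R hx hc) (fun a z hz ha => inv_inv R hev hz ha)
    (fun a => inv_num R hev a) (fun a b hab => (inv_ex R hev hab).exists)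
    (fun y z hy hz => inv_conj R hev hy hz)

end Cfsg.Agent.Lib.FR
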