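import Cfsg.Agent.Lib.FRa

set_option autoImplicit false
set_option linter.all false

/-! S2207, piece PAR -/

namespace Cfsg.Agent.Lib.FR_PAR

open MulAction Cfsg.Agent.Lib.FR

variable {G X : Type*} [Group G] [Finite G] [Finite X] [MulAction G X] {D : X → X → Prop} {K : X → Subgroup G}
  {k h l lam mu : ℕ}

/-- a fixed point free involution on a finite type -/
theorem even_card_of_involutive {F : Type*} [Finite F] (f : F → F) (h1 : ∀ x, f (f x) = x) (h2 : ∀ x, f x ≠ x) :
    Even (Nat.card F) := by
  classical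
  haveI : Fintype F := Fintype.ofFinite F
  let σ : Equiv.Perm F := ⟨f, f, h1, h1⟩
  have h3 : 2 ∣ σ.support.card := by
    apply Equiv.Perm.two_dvd_card_support
    ext x
    rw [pow_two]
    exact h1 x
  have h4 : σ.support = Finset.univ := by
    ext x
    simp only [Equiv.Perm.mem_support, Finset.mem_univ, iff_true]
    exact h2 x
  rw [h4, Finset.card_univ, ← Nat.card_eq_fintype_card] at h3
  exact even_iff_two_dvd.2 h3

theorem exists_fixed (R : Rk G X D K k h l lam mu) {q : ℕ} [Fact q.Prime] (hqh : q ∣ h) {Q : Subgroup G} (hQ : IsPGroup q Q)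
    {y : X} (hy : ∀ x ∈ Q, x • y = y) : ∃ b, D y b ∧ ∀ x ∈ Q, x • b = b := by
  classical
  let sub : SubMulAction Q X :=
    { carrier := {b | D y b}
      smul_mem' := fun x b hb => by
        have h1 := R.inv x y b hb
        rw [hy x x.2] at h1
        exact h1 }
  have hcard : Nat.card sub = k := R.cD y
  have hnd : ¬ q ∣ Nat.card sub := by
    rw [hcard]
    intro h1
    have h2 : q ∣ k - 1 := hqh.trans R.hk
    have h3 := (Nat.dvd_sub h1 h2)
    have h4 := R.k2
    have h5 : k - (k - 1) = 1 := by omega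
    rw [h5] at h3
    exact (Fact.out : q.Prime).one_lt.ne' (Nat.dvd_one.1 h3)
  obtain ⟨b, hb⟩ := hQ.nonempty_fixed_point_of_prime_not_dvd_card sub hnd
  refine ⟨b, b.2, fun x hx => ?_⟩
  have h1 := hb ⟨x, hx⟩
  exact congrArg Subtype.val h1

theorem par (R : Rk G X D K k h l lam mu) (hodd : Odd h) {a c : X} (hac : a ≠ c) (hN : ¬ D a c) {g : G} (ga : g • a = a)
    (gc : g • c = c) : g ∈ K a := by
  classical
  by_contra hg
  obtain ⟨b0, hb0, hgb0⟩ : ∃ b, D a b ∧ g • b = b := by
    by_contra hcon
    push Not at hcon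
    exact hg (R.Kall a g ga (fun b hb => hcon b hb))
  have hg1 : g ≠ 1 := by rintro rfl; exact hg (K a).one_mem
  have hord : orderOf g ≠ 1 := by rwa [Ne, orderOf_eq_one_iff]
  obtain ⟨q, hq, hqg⟩ := Nat.exists_prime_and_dvd hord
  haveI : Fact q.Prime := ⟨hq⟩
  have hqh : q ∣ h := by
    rw [← R.Hcard a b0 hb0]
    refine hqg.trans ?_
    have hm : g ∈ stabilizer G a ⊓ stabilizer G b0 := ⟨ga, hgb0⟩
    have h1 := orderOf_dvd_natCard (⟨g, hm⟩ : ↥(stabilizer G a ⊓ stabilizer G b0))
    rwa [Subgroup.orderOf_mk] at h1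
  set S : Subgroup G := stabilizer G a ⊓ stabilizer G c with hS
  have hqS : q ∣ Nat.card S := by
    refine hqg.trans ?_
    have hm : g ∈ S := ⟨ga, gc⟩
    have h1 := orderOf_dvd_natCard (⟨g, hm⟩ : ↥S)
    rwa [Subgroup.orderOf_mk] at h1
  obtain ⟨P⟩ : Nonempty (Sylow q S) := inferInstance
  set Q : Subgroup G := (P : Subgroup S).map S.subtype with hQdef
  have hQcard : Nat.card Q = q ^ (Nat.card S).factorization q := by
    rw [hQdef, Subgroup.card_map_of_injective S.subtype_injective]
    exact P.card_eq_multiplicity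
  have hQP : IsPGroup q Q := IsPGroup.of_card hQcard
  have hQS : Q ≤ S := by
    rw [hQdef]
    exact Subgroup.map_subtype_le _
  obtain ⟨x0, hx0, hx01⟩ : ∃ x ∈ Q, x ≠ 1 := by
    by_contra hcon
    push Not at hcon
    have h1 : Q = ⊥ := by rw [eq_bot_iff]; intro x hx; exact Subgroup.mem_bot.2 (hcon x hx)
    rw [h1, Subgroup.card_bot] at hQcard
    have h2 : (Nat.card S).factorization q ≠ 0 := by
      have := (hq.dvd_iff_one_le_factorization Nat.card_pos.ne').1 hqS
      omega
    have h3 := Nat.one_lt_pow h2 hq.one_lt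
    omega
  -- fixed points
  let F : X → Prop := fun y => ∀ x ∈ Q, x • y = y
  have hFa : F a := fun x hx => (hQS hx).1
  have hFc : F c := fun x hx => (hQS hx).2
  have hex : ∀ y, F y → ∃ b, D y b ∧ F b := fun y hy => exists_fixed R hqh hQP hy
  have huniq : ∀ y b b', F y → D y b → F b → D y b' → F b' → b = b' := by
    intro y b b' hy h1 h2 h3 h4
    by_contra hbb
    exact hx01 (R.Hfree y b b' x0 h1 h3 hbb (hy x0 hx0) (h2 x0 hx0) (h4 x0 hx0))
  choose! π hπD hπF using hex
  have hππ : ∀ y, F y → π (π y) = y := by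
    intro y hy
    exact huniq (π y) _ _ (hπF y hy) (hπD _ (hπF y hy)) (hπF _ (hπF y hy)) (R.symm _ _ (hπD y hy)) hy
  have hev : Even (Nat.card {y // F y}) := by
    apply even_card_of_involutive (fun y : {y // F y} => (⟨π y.1, hπF y.1 y.2⟩ : {y // F y}))
    · intro y; exact Subtype.ext (hππ y.1 y.2)
    · intro y h1
      have h2 : π y.1 = y.1 := congrArg Subtype.val h1
      have h3 := hπD y.1 y.2
      rw [h2] at h3
      exact R.irr _ h3
  set b := π a with hb
  have hab : D a b := hπD a hFa
  have hFb : F b := hπF a hFa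
  -- the normalizer
  set M : Subgroup G := stabilizer G a ⊓ Subgroup.normalizer (Q : Set G) with hM
  have hMb : M ≤ stabilizer G a ⊓ stabilizer G b := by
    intro n hn
    refine ⟨hn.1, ?_⟩
    have hna : n • a = a := hn.1
    have h1 : D a (n • b) := by
      have := R.inv n a b hab
      rwa [hna] at this
    have h2 : F (n • b) := by
      intro x hx
      have h3 : n⁻¹ * x * n ∈ Q := by
        have h4 := Subgroup.mem_normalizer_iff.1 (inv_mem hn.2) x
        rw [inv_inv] at h4
        exact h4.1 hx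
      have h4 := hFb _ h3
      rw [mul_smul, mul_smul] at h4
      have h5 := congrArg (fun z => n • z) h4
      simpa [smul_smul] using h5
    exact (huniq a b (n • b) hFa hab hFb h1 h2).symm
  have hModd : Odd (Nat.card M) := by
    have h1 := Subgroup.card_dvd_of_le hMb
    rw [R.Hcard a b hab] at h1
    exact hodd.of_dvd_nat h1
  have horb : ∀ c' : X, c' ∈ orbit M c ↔ (c' ≠ a ∧ ¬ D a c' ∧ F c') := by
    intro c'
    constructor
    · rintro ⟨⟨n, hn⟩, rfl⟩
      have hna : n • a = a := hn.1
      refine ⟨?_, ?_, ?_⟩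
      · intro h1
        have h2 : n • c = n • a := by rw [hna]; exact h1
        exact hac (smul_left_cancel n h2).symm
      · intro h1
        have h2 : D a (n • c) := h1
        have h3 := R.inv n⁻¹ _ _ h2
        rw [inv_smul_smul] at h3
        have h4 : n⁻¹ • a = a := by rw [inv_smul_eq_iff, hna]
        rw [h4] at h3
        exact hN h3
      · intro x hx
        have h3 : n⁻¹ * x * n ∈ Q := by
          have h4 := Subgroup.mem_normalizer_iff.1 (inv_mem hn.2) x
          rw [inv_inv] at h4
          exact h4.1 hx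
        have h4 := hFc _ h3
        rw [mul_smul, mul_smul] at h4
        have h5 := congrArg (fun z => n • z) h4
        simpa [smul_smul] using h5
    · rintro ⟨h1, h2, h3⟩
      obtain ⟨y, hya, hyc⟩ := R.trN a c a c' hac hN h1.symm h2
      set S' : Subgroup G := stabilizer G a ⊓ stabilizer G c' with hS'
      -- conjugation by `y`
      have hSS' : S.map (MulAut.conj y).toMonoidHom = S' := by
        ext z
        rw [Subgroup.mem_map]
        constructor
        · rintro ⟨s, hs, rfl⟩
          have e1 : s • a = a := hs.1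
          have e2 : s • c = c := hs.2
          refine ⟨?_, ?_⟩
          · show (y * s * y⁻¹) • a = a
            rw [mul_smul, mul_smul, (inv_smul_eq_iff.2 hya.symm : y⁻¹ • a = a), e1, hya]
          · show (y * s * y⁻¹) • c' = c'
            rw [mul_smul, mul_smul, (inv_smul_eq_iff.2 hyc.symm : y⁻¹ • c' = c), e2, hyc]
        · rintro ⟨e1, e2⟩
          have e1' : z • a = a := e1
          have e2' : z • c' = c' := e2
          refine ⟨y⁻¹ * z * y, ⟨?_, ?_⟩, ?_⟩
          · show (y⁻¹ * z * y) • a = a
            rw [mul_smul, mul_smul, hya, e1', inv_smul_eq_iff, hya]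
          · show (y⁻¹ * z * y) • c = c
            rw [mul_smul, mul_smul, hyc, e2', inv_smul_eq_iff, hyc]
          · show y * (y⁻¹ * z * y) * y⁻¹ = z
            group
      have hcardS' : Nat.card S' = Nat.card S := by
        rw [← hSS', Subgroup.card_map_of_injective (MulAut.conj y).injective]
      set Q2 : Subgroup G := Q.map (MulAut.conj y).toMonoidHom with hQ2
      have hQ2card : Nat.card Q2 = Nat.card Q := by
        rw [hQ2, Subgroup.card_map_of_injective (MulAut.conj y).injective]
      have hQ2S : Q2 ≤ S' := by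
        rw [hQ2, ← hSS']
        exact Subgroup.map_mono hQS
      have hQS' : Q ≤ S' := fun x hx => ⟨hFa x hx, h3 x hx⟩
      have hc1 : Nat.card (Q.subgroupOf S') = q ^ (Nat.card S').factorization q := by
        rw [Nat.card_congr (Subgroup.subgroupOfEquivOfLe hQS').toEquiv, hQcard, hcardS']
      have hc2 : Nat.card (Q2.subgroupOf S') = q ^ (Nat.card S').factorization q := by
        rw [Nat.card_congr (Subgroup.subgroupOfEquivOfLe hQ2S).toEquiv, hQ2card, hQcard, hcardS']
      obtain ⟨⟨s, hs⟩, hsP⟩ := MulAction.exists_smul_eq S' (Sylow.ofCard _ hc2) (Sylow.ofCard _ hc1)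
      have hs2 : ∀ x : G, x ∈ Q2 → s * x * s⁻¹ ∈ Q := by
        intro x hx
        have e1 : (⟨x, hQ2S hx⟩ : S') ∈ (Sylow.ofCard _ hc2 : Sylow q S') := by
          show (⟨x, hQ2S hx⟩ : S') ∈ Q2.subgroupOf S'
          rw [Subgroup.mem_subgroupOf]; exact hx
        have e2 : (⟨s, hs⟩ : S') * ⟨x, hQ2S hx⟩ * (⟨s, hs⟩ : S')⁻¹ ∈ (Sylow.ofCard _ hc1 : Sylow q S') := by
          rw [← hsP]
          have e3 := Subgroup.smul_mem_pointwise_smul _ (MulAut.conj (⟨s, hs⟩ : S')) _ e1
          exact e3
        have e4 : (⟨s, hs⟩ : S') * ⟨x, hQ2S hx⟩ * (⟨s, hs⟩ : S')⁻¹ ∈ Q.subgroupOf S' := e2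
        rw [Subgroup.mem_subgroupOf] at e4
        exact e4
      have hmem : s * y ∈ Subgroup.normalizer (Q : Set G) := by
        have e1 : ∀ x ∈ Q, (s * y) * x * (s * y)⁻¹ ∈ Q := by
          intro x hx
          have e2 := hs2 (y * x * y⁻¹) (by rw [hQ2]; exact ⟨x, hx, rfl⟩)
          have e3 : s * (y * x * y⁻¹) * s⁻¹ = (s * y) * x * (s * y)⁻¹ := by group
          rwa [e3] at e2
        rw [Subgroup.mem_normalizer_iff]
        intro x
        refine ⟨e1 x, fun e2 => ?_⟩
        have e3 : Q.map (MulAut.conj (s * y)).toMonoidHom = Q := by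
          apply Subgroup.eq_of_le_of_card_ge
          · rintro _ ⟨x, hx, rfl⟩; exact e1 x hx
          · have hcard3 : Nat.card (Q.map (MulAut.conj (s * y)).toMonoidHom) = Nat.card Q :=
              Subgroup.card_map_of_injective (MulAut.conj (s * y)).injective
            exact hcard3.ge
        have e4 : (s * y) * x * (s * y)⁻¹ ∈ Q.map (MulAut.conj (s * y)).toMonoidHom := by rw [e3]; exact e2
        obtain ⟨x', hx', hxx⟩ := e4
        have e5 : MulAut.conj (s * y) x' = MulAut.conj (s * y) x := hxx
        rw [← (MulAut.conj (s * y)).injective e5]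
        exact hx'
      refine ⟨⟨s * y, ⟨?_, hmem⟩⟩, ?_⟩
      · show (s * y) • a = a
        rw [mul_smul, hya]; exact hs.1
      · show (s * y) • c = c'
        rw [mul_smul, hyc]; exact hs.2
  have hTodd : Odd (Nat.card (orbit M c)) := by
    have h1 : Nat.card (orbit M c) ∣ Nat.card M := by
      have h2 := Subgroup.index_dvd_card (stabilizer M c)
      rw [MulAction.index_stabilizer] at h2
      exact h2
    exact hModd.of_dvd_nat h1
  have hne : a ≠ b := fun h1 => R.irr a (by rw [← h1] at hab; exact hab)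
  have hset : {y | F y} = insert a (insert b (orbit M c)) := by
    ext y
    simp only [Set.mem_setOf_eq, Set.mem_insert_iff]
    constructor
    · intro hy
      by_cases h1 : y = a
      · exact Or.inl h1
      · by_cases h2 : D a y
        · exact Or.inr (Or.inl (huniq a y b hFa h2 hy hab hFb))
        · exact Or.inr (Or.inr ((horb y).2 ⟨h1, h2, hy⟩))
    · rintro (rfl | rfl | h1)
      · exact hFa
      · exact hFb
      · exact ((horb y).1 h1).2.2
  have hcount : Nat.card {y // F y} = 2 + Nat.card (orbit M c) := by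
    have h1 : Nat.card {y // F y} = Set.ncard {y | F y} := rfl
    have h2 : b ∉ orbit M c := fun h3 => ((horb b).1 h3).2.1 hab
    have h3 : a ∉ insert b (orbit M c) := by
      rw [Set.mem_insert_iff, not_or]
      exact ⟨hne, fun h4 => ((horb a).1 h4).1 rfl⟩
    rw [h1, hset, Set.ncard_insert_of_notMem h3 (Set.toFinite _), Set.ncard_insert_of_notMem h2 (Set.toFinite _)]
    have h4 : (orbit M c).ncard = Nat.card (orbit M c) := rfl
    rw [h4]
    omega
  rw [hcount] at hev
  obtain ⟨r, hr⟩ := hTodd
  obtain ⟨r', hr'⟩ := hev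
  omega

end Cfsg.Agent.Lib.FR_PAR
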