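import Cfsg.Agent.Lib.FR_KC
import Cfsg.Agent.Lib.FR_INV

set_option autoImplicit false

namespace Cfsg.Agent.Lib.FR

open MulAction Subgroup

section q34_abstract

theorem q34_top {S : Type*} [Group S] [Finite S] (H : Subgroup S) (h : Nat.card S < 2 * Nat.card H) : H = ⊤ := by
  have h1 := H.card_mul_index
  have h2 : 0 < Nat.card H := Nat.card_pos
  have h3 : H.index < 2 := by
    by_contra hc
    push Not at hc
    have : Nat.card H * 2 ≤ Nat.card H * H.index := Nat.mul_le_mul_left _ hc
    omega
  have h4 : H.index ≠ 0 := H.index_ne_zero_of_finite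
  have h5 : H.index = 1 := by omega
  exact Subgroup.index_eq_one.1 h5

theorem q34_A {S : Type*} [Group S] [Finite S] (f : S →* S)
    (h : 3 * Nat.card S < 4 * Nat.card {g : S // f g = g⁻¹}) :
    (∀ x y : S, x * y = y * x) ∧ ∀ g, f g = g⁻¹ := by
  classical
  haveI : Fintype S := Fintype.ofFinite S
  have hP : Nat.card {g : S // f g = g⁻¹} = (Finset.univ.filter (fun g : S => f g = g⁻¹)).card := by
    rw [Nat.card_eq_fintype_card, Fintype.card_subtype]
  set P : Finset S := Finset.univ.filter (fun g : S => f g = g⁻¹) with hPdef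
  rw [hP, Nat.card_eq_fintype_card] at h
  have hcent : ∀ g ∈ P, Subgroup.centralizer ({g} : Set S) = ⊤ := by
    intro g hg
    apply q34_top
    have hg1 : f g = g⁻¹ := (Finset.mem_filter.1 hg).2
    set Q : Finset S := P.image (fun x => g⁻¹ * x) with hQ
    have hQc : Q.card = P.card := Finset.card_image_of_injective _ (fun x y hxy => by simpa using hxy)
    have hint : Q ∩ P ⊆ Finset.univ.filter (fun y => y ∈ Subgroup.centralizer ({g} : Set S)) := by
      intro y hy
      rw [Finset.mem_inter] at hy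
      obtain ⟨hy1, hy2⟩ := hy
      obtain ⟨x, hx, hxy⟩ := Finset.mem_image.1 hy1
      have hx1 : f x = x⁻¹ := (Finset.mem_filter.1 hx).2
      have hy3 : f y = y⁻¹ := (Finset.mem_filter.1 hy2).2
      have hxg : x = g * y := by rw [← hxy]; group
      rw [hxg, map_mul, hg1, hy3] at hx1
      refine Finset.mem_filter.2 ⟨Finset.mem_univ _, ?_⟩
      rw [Subgroup.mem_centralizer_singleton_iff]
      have h2 : (g⁻¹ * y⁻¹)⁻¹ = ((g * y)⁻¹)⁻¹ := by rw [hx1]
      simpa using h2
    have h3 : (Q ∩ P).card ≤ Nat.card (Subgroup.centralizer ({g} : Set S)) := by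
      refine (Finset.card_le_card hint).trans ?_
      rw [Nat.card_eq_fintype_card, Fintype.card_subtype]
    have h4 := Finset.card_union_add_card_inter Q P
    have h5 : (Q ∪ P).card ≤ Fintype.card S := Finset.card_le_univ _
    rw [Nat.card_eq_fintype_card]
    omega
  have hZ : Subgroup.center S = ⊤ := by
    apply q34_top
    have h3 : P ⊆ Finset.univ.filter (fun y => y ∈ Subgroup.center S) := by
      intro g hg
      refine Finset.mem_filter.2 ⟨Finset.mem_univ _, ?_⟩
      rw [Subgroup.mem_center_iff]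
      intro x
      have hx : x ∈ Subgroup.centralizer ({g} : Set S) := by rw [hcent g hg]; trivial
      rw [Subgroup.mem_centralizer_singleton_iff] at hx
      exact hx
    have h4 : P.card ≤ Nat.card (Subgroup.center S) := by
      refine (Finset.card_le_card h3).trans ?_
      rw [Nat.card_eq_fintype_card, Fintype.card_subtype]
    rw [Nat.card_eq_fintype_card]
    omega
  have hcomm : ∀ x y : S, x * y = y * x := by
    intro x y
    have hx : y ∈ Subgroup.center S := by rw [hZ]; trivial
    exact Subgroup.mem_center_iff.1 hx x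
  refine ⟨hcomm, ?_⟩
  let H : Subgroup S :=
    { carrier := {g | f g = g⁻¹}
      one_mem' := by simp
      mul_mem' := by
        intro a b ha hb
        change f (a * b) = (a * b)⁻¹
        change f a = a⁻¹ at ha
        change f b = b⁻¹ at hb
        rw [map_mul, ha, hb, mul_inv_rev, hcomm]
      inv_mem' := by
        intro a ha
        change f a⁻¹ = a⁻¹⁻¹
        change f a = a⁻¹ at ha
        rw [map_inv, ha] }
  have hH : H = ⊤ := by
    apply q34_top
    have : Nat.card H = P.card := by
      rw [← hP]; rfl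
    rw [this, Nat.card_eq_fintype_card]
    omega
  intro g
  have : g ∈ H := by rw [hH]; trivial
  exact this

theorem q34_B {S : Type*} [Group S] [Finite S] (hcomm : ∀ x y : S, x * y = y * x) (T : Set S)
    (hT : ∀ g ∈ T, ∀ x : S, x * x * g ∈ T) (h1 : 3 * Nat.card S < 4 * Nat.card T)
    (h2 : Nat.card {x : S // x * x = 1} = 2) : Nat.card T = Nat.card S := by
  classical
  haveI : Fintype S := Fintype.ofFinite S
  let sq : S →* S :=
    { toFun := fun x => x * x
      map_one' := by simp
      map_mul' := by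
        intro x y
        calc x * y * (x * y) = x * (y * x) * y := by group
          _ = x * (x * y) * y := by rw [hcomm y x]
          _ = x * x * (y * y) := by group }
  have hk : Nat.card sq.ker = 2 := by
    rw [← h2]
    exact Nat.card_congr (Equiv.subtypeEquivRight (fun x => by
      rw [MonoidHom.mem_ker]; rfl))
  have hr : Nat.card sq.ker * Nat.card sq.range = Nat.card S := by
    have h3 := Subgroup.card_mul_index sq.ker
    rw [Subgroup.index_ker] at h3
    exact h3
  have hTu : T = Set.univ := by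
    by_contra hne
    obtain ⟨g, hg⟩ : ∃ g, g ∉ T := by
      by_contra hall
      push Not at hall
      exact hne (Set.eq_univ_of_forall hall)
    -- the coset of g misses T
    have hinj : Function.Injective (fun x : sq.range => (x : S) * g) := fun x y hxy => by
      apply Subtype.ext
      simpa using hxy
    have hdis : Disjoint (Finset.univ.filter (fun y => y ∈ T))
        (Finset.univ.image (fun x : sq.range => (x : S) * g)) := by
      rw [Finset.disjoint_left]
      intro y hy1 hy2
      have hy1' : y ∈ T := (Finset.mem_filter.1 hy1).2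
      obtain ⟨⟨x, u, hu⟩, -, hxy⟩ := Finset.mem_image.1 hy2
      apply hg
      have h5 : u⁻¹ * u⁻¹ * y ∈ T := hT y hy1' u⁻¹
      have h6 : u⁻¹ * u⁻¹ * y = g := by
        rw [← hxy]
        change u⁻¹ * u⁻¹ * (x * g) = g
        have h7 : x = u * u := hu.symm
        rw [h7]; group
      rwa [h6] at h5
    have hc := Finset.card_union_of_disjoint hdis
    have hle := Finset.card_le_univ ((Finset.univ.filter (fun y => y ∈ T)) ∪
        (Finset.univ.image (fun x : sq.range => (x : S) * g)))
    rw [hc, Finset.card_image_of_injective _ hinj] at hle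
    have e1 : (Finset.univ.filter (fun y => y ∈ T)).card = Nat.card T := by
      rw [Nat.card_eq_fintype_card, ← Fintype.card_subtype]
    have e2 : (Finset.univ : Finset sq.range).card = Nat.card sq.range := by
      rw [Nat.card_eq_fintype_card, Finset.card_univ]
    rw [e1, e2, ← Nat.card_eq_fintype_card] at hle
    rw [hk] at hr
    omega
  rw [hTu, Nat.card_coe_set_eq, Set.ncard_univ]

end q34_abstract

variable {G X : Type*} [Group G] [Finite G] [Finite X] [MulAction G X] {D : X → X → Prop} {K : X → Subgroup G}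
  {k h l lam mu : ℕ}

theorem q34_conj (R : Rk G X D K k h l lam mu) (hev : Even h) {a : X} {z z' : G} (hz : z ^ 2 = 1) (hz1 : z ≠ 1)
    (ha : z • a = a) (hz' : z' ^ 2 = 1) (hz1' : z' ≠ 1) (ha' : z' • a = a) : ∃ x ∈ K a, x * z * x⁻¹ = z' := by
  obtain ⟨b, ⟨hb1, hb2⟩, -⟩ := (inv_inv R hev (z := z) ⟨hz, hz1, a, ha⟩ ha).2
  obtain ⟨b', ⟨hb1', hb2'⟩, -⟩ := (inv_inv R hev (z := z') ⟨hz', hz1', a, ha'⟩ ha').2
  obtain ⟨x, hx, hxb⟩ := R.Kreg a b b' hb1 hb1'
  refine ⟨x, hx, ?_⟩
  have hxa : x • a = a := R.Kst a x hx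
  obtain ⟨w, -, hw⟩ := inv_ex R hev hb1'
  have h1 := hw (x * z * x⁻¹) ⟨by
      have : (x * z * x⁻¹) ^ 2 = x * z ^ 2 * x⁻¹ := conj_pow
      rw [this, hz]; group, by
      intro hc
      apply hz1
      have : z = x⁻¹ * (x * z * x⁻¹) * x := by group
      rw [this, hc]; group, by
      rw [mul_smul, mul_smul, inv_smul_eq_iff.2 hxa.symm, ha, hxa], by
      rw [mul_smul, mul_smul, inv_smul_eq_iff.2 hxb.symm, hb2, hxb]⟩
  have h2 := hw z' ⟨hz', hz1', ha', hb2'⟩
  rw [h1, h2]

theorem q34_uniq (R : Rk G X D K k h l lam mu) (hev : Even h) (ti : TI K) {a c : X} (hac : a ≠ c) {z z' : G}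
    (hz : z ^ 2 = 1) (hz1 : z ≠ 1) (ha : z • a = a) (hc : z • c = c)
    (hz' : z' ^ 2 = 1) (hz1' : z' ≠ 1) (ha' : z' • a = a) (hc' : z' • c = c) : z' = z := by
  obtain ⟨x, hx, hxz⟩ := q34_conj R hev hz hz1 ha hz' hz1' ha'
  have hi := (inv_inv R hev (z := z) ⟨hz, hz1, a, ha⟩ ha).1 x hx
  have h1 : z' * z⁻¹ = x * x := by
    rw [← hxz]
    have : z * x⁻¹ * z⁻¹ = x := by
      have h3 : (z * x * z⁻¹)⁻¹ = (x⁻¹)⁻¹ := by rw [hi]
      have h4 : (z * x * z⁻¹)⁻¹ = z * x⁻¹ * z⁻¹ := by group
      rw [h4, _root_.inv_inv] at h3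
      exact h3
    calc x * z * x⁻¹ * z⁻¹ = x * (z * x⁻¹ * z⁻¹) := by group
      _ = x * x := by rw [this]
  have h2 : z' * z⁻¹ ∈ K a := by rw [h1]; exact (K a).mul_mem hx hx
  have h3 : (z' * z⁻¹) • c = c := by rw [mul_smul, inv_smul_eq_iff.2 hc.symm, hc']
  have h4 := ti a c hac _ h2 (kc R h2 h3)
  rw [mul_inv_eq_one] at h4
  exact h4

theorem q34 (R : Rk G X D K k h l lam mu) (hev : Even h) (ti : TI K) {s nN : ℕ} (hse : Even s) (hspos : 0 < s)
    (hs : ∀ a c, a ≠ c → ¬ D a c → Nat.card ↥(stabilizer G a ⊓ stabilizer G c) = s)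
    (hn : ∀ a c, a ≠ c → ¬ D a c → Nat.card {z // z ∈ IC (G := G) X ∧ z • a = c} = nN) : 4 * nN ≤ 3 * s ∨ nN = s := by
  classical
  by_contra hcon
  push Not at hcon
  obtain ⟨hc1, hc2⟩ := hcon
  -- a Gamma pair
  obtain ⟨a⟩ : Nonempty X := by
    have h1 := R.cX
    have : 0 < Nat.card X := by omega
    exact (Nat.card_pos_iff.1 this).1
  obtain ⟨⟨c, hca, hND⟩⟩ : Nonempty {c // c ≠ a ∧ ¬ D a c} := by
    have h1 := R.cN a
    have h2 := R.l1
    have : 0 < Nat.card {c // c ≠ a ∧ ¬ D a c} := by omega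
    exact (Nat.card_pos_iff.1 this).1
  have hac : a ≠ c := fun h => hca h.symm
  have hS := hs a c hac hND
  have hN := hn a c hac hND
  set S : Subgroup G := stabilizer G a ⊓ stabilizer G c with hSdef
  obtain ⟨⟨τ, hτ, hτa⟩⟩ : Nonempty {z // z ∈ IC (G := G) X ∧ z • a = c} := by
    have : 0 < Nat.card {z // z ∈ IC (G := G) X ∧ z • a = c} := by omega
    exact (Nat.card_pos_iff.1 this).1
  have hmS : ∀ g : G, g ∈ S ↔ g • a = a ∧ g • c = c := by
    intro g; rw [hSdef, Subgroup.mem_inf, mem_stabilizer_iff, mem_stabilizer_iff]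
  have hτ2 : τ * τ = 1 := by have := hτ.1; rwa [pow_two] at this
  have hτi : τ⁻¹ = τ := inv_eq_of_mul_eq_one_right hτ2
  have hτc : τ • c = a := by rw [← hτa, ← mul_smul, hτ2, one_smul]
  have hnorm : ∀ g ∈ S, τ * g * τ⁻¹ ∈ S := by
    intro g hg
    rw [hmS] at hg ⊢
    rw [hτi]
    constructor
    · rw [mul_smul, mul_smul, hτa, hg.2, hτc]
    · rw [mul_smul, mul_smul, hτc, hg.1, hτa]
  let f : S →* S :=
    { toFun := fun g => ⟨τ * g * τ⁻¹, hnorm g g.2⟩
      map_one' := by apply Subtype.ext; simp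
      map_mul' := by intro x y; apply Subtype.ext; simp }
  have hf : ∀ g : S, ((f g : S) : G) = τ * g * τ⁻¹ := fun g => rfl
  let T : Set S := {g | (g : G) * τ ∈ IC (G := G) X}
  have hTc : Nat.card T = nN := by
    rw [← hN]
    refine Nat.card_congr ⟨fun g => ⟨(g.1 : G) * τ, g.2, ?_⟩, fun z => ⟨⟨z.1 * τ, ?_⟩, ?_⟩, ?_, ?_⟩
    · rw [mul_smul, hτa]; exact ((hmS _).1 g.1.2).2
    · rw [hmS]
      have hz2 : z.1 * z.1 = 1 := by have := z.2.1.1; rwa [pow_two] at this
      refine ⟨?_, ?_⟩
      · have e1 : z.1 • c = a := by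
          have e2 : z.1 • (z.1 • a) = a := by rw [← mul_smul, hz2, one_smul]
          rwa [z.2.2] at e2
        rw [mul_smul, hτa, e1]
      · rw [mul_smul, hτc, z.2.2]
    · change (z.1 * τ) * τ ∈ IC (G := G) X
      rw [mul_assoc, hτ2, mul_one]; exact z.2.1
    · intro g
      apply Subtype.ext; apply Subtype.ext
      change ((g.1 : G) * τ) * τ = g.1
      rw [mul_assoc, hτ2, mul_one]
    · intro z
      apply Subtype.ext
      change (z.1 * τ) * τ = z.1
      rw [mul_assoc, hτ2, mul_one]
  have hTinv : ∀ g ∈ T, f g = g⁻¹ := by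
    intro g hg
    apply Subtype.ext
    rw [hf]
    have h1 : ((g : G) * τ) ^ 2 = 1 := hg.1
    rw [pow_two] at h1
    have h2 : (g : G) * (τ * g * τ) = 1 := by
      calc (g : G) * (τ * g * τ) = (g : G) * τ * ((g : G) * τ) := by group
        _ = 1 := h1
    rw [hτi]
    exact (inv_eq_of_mul_eq_one_right h2).symm
  have hbig : 3 * Nat.card S < 4 * Nat.card {g : S // f g = g⁻¹} := by
    have : Nat.card T ≤ Nat.card {g : S // f g = g⁻¹} :=
      Nat.card_le_card_of_injective (fun g : T => (⟨g.1, hTinv g.1 g.2⟩ : {g : S // f g = g⁻¹}))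
        (fun x y hxy => by
          have := congrArg Subtype.val hxy
          exact Subtype.ext this)
    rw [hS]
    omega
  obtain ⟨hcomm, hinv⟩ := q34_A f hbig
  have hB := q34_B hcomm T (by
      intro g hg x
      change ((x * x * g : S) : G) * τ ∈ IC (G := G) X
      have h1 : ((x * x * g : S) : G) * τ = (x : G) * ((g : G) * τ) * (x : G)⁻¹ := by
        have h2 : ((f x⁻¹ : S) : G) = x := by rw [hinv, _root_.inv_inv]
        rw [hf] at h2
        have h3 : τ * ((x : G)⁻¹) = x * τ := by
          have h4 : τ * ((x⁻¹ : S) : G) * τ⁻¹ = x := h2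
          exact mul_inv_eq_iff_eq_mul.1 h4
        have h5 : ((x * x * g : S) : G) = x * g * x := by
          have : x * x * g = x * g * x := by
            calc x * x * g = x * (x * g) := mul_assoc _ _ _
              _ = x * (g * x) := congrArg (x * ·) (hcomm x g)
              _ = x * g * x := (mul_assoc _ _ _).symm
          rw [this]; rfl
        rw [h5]
        calc (x : G) * g * x * τ = x * g * (x * τ) := by rw [mul_assoc ((x : G) * g)]
          _ = x * g * (τ * (x : G)⁻¹) := by rw [h3]
          _ = (x : G) * ((g : G) * τ) * (x : G)⁻¹ := by simp only [mul_assoc]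
      rw [h1]
      obtain ⟨e1, e2, y, e3⟩ := hg
      refine ⟨?_, ?_, (x : G) • y, ?_⟩
      · have : ((x : G) * ((g : G) * τ) * (x : G)⁻¹) ^ 2 = x * ((g : G) * τ) ^ 2 * (x : G)⁻¹ := conj_pow
        rw [this, e1]; group
      · intro hc
        apply e2
        have : (g : G) * τ = (x : G)⁻¹ * ((x : G) * ((g : G) * τ) * (x : G)⁻¹) * x := by group
        rw [this, hc]; group
      · rw [mul_smul, inv_smul_smul, mul_smul, e3]) (by rw [hS, hTc]; omega) (by
      -- exactly one involution
      have hdvd : 2 ∣ Nat.card S := by rw [hS]; exact hse.two_dvd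
      haveI : Fact (Nat.Prime 2) := ⟨Nat.prime_two⟩
      obtain ⟨i, hi⟩ := exists_prime_orderOf_dvd_card' 2 hdvd
      have hi2 : i * i = 1 := by rw [← pow_two, ← hi]; exact pow_orderOf_eq_one i
      have hi1 : i ≠ 1 := by
        intro h0; rw [h0, orderOf_one] at hi; omega
      have hall : ∀ x : S, x * x = 1 → x = 1 ∨ x = i := by
        intro x hx
        by_cases hx1 : x = 1
        · exact Or.inl hx1
        right
        apply Subtype.ext
        have q1 := (hmS _).1 x.2
        have q2 := (hmS _).1 i.2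
        refine q34_uniq R hev ti hac (z := (i : G)) (z' := (x : G)) ?_ ?_ q2.1 q2.2 ?_ ?_ q1.1 q1.2
        · rw [pow_two]; exact congrArg Subtype.val hi2
        · intro h0; exact hi1 (Subtype.ext h0)
        · rw [pow_two]; exact congrArg Subtype.val hx
        · intro h0; exact hx1 (Subtype.ext h0)
      have hset : {x : S | x * x = 1} = {1, i} := by
        ext x
        constructor
        · intro hx
          rcases hall x hx with h0 | h0
          · rw [h0]; exact Set.mem_insert _ _
          · rw [h0]; exact Set.mem_insert_of_mem _ rfl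
        · rintro (h0 | h0)
          · rw [h0]; simp
          · rw [Set.mem_singleton_iff.1 h0]; exact hi2
      change Nat.card ({x : S | x * x = 1} : Set S) = 2
      rw [hset, Nat.card_coe_set_eq, Set.ncard_pair (fun h0 => hi1 h0.symm)])
  rw [hTc, hS] at hB
  exact hc2 hB

end Cfsg.Agent.Lib.FR
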