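import Cfsg.Agent.Lib.FRa
import Cfsg.Agent.Lib.H23Nilp

/-! S2207 piece S2T: the normalizer of `K_a ∩ K_c` acts as a sharply two-transitive group of odd degree (helper75). -/

set_option autoImplicit false

namespace Cfsg.Agent.Lib.FR

open MulAction Subgroup

theorem s2t_permA {F : Type*} [Fintype F] [DecidableEq F] (M : Subgroup (Equiv.Perm F))
    (h1 : ∀ σ ∈ M, ∀ y y', y ≠ y' → σ y = y → σ y' = y' → σ = 1) (hodd : ¬ 2 ∣ Fintype.card F) {σ : Equiv.Perm F}
    (hσ : σ ∈ M) (h2 : σ ^ 2 = 1) (hne : σ ≠ 1) : ∃! y, σ y = y := by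
  have : Fact (Nat.Prime 2) := ⟨Nat.prime_two⟩
  obtain ⟨y, hy⟩ := Equiv.Perm.exists_fixed_point_of_prime (p := 2) (n := 1) hodd (σ := σ) (by simpa using h2)
  refine ⟨y, hy, ?_⟩
  intro z hz
  by_contra hzy
  exact hne (h1 σ hσ z y hzy hz hy)

theorem s2t_permB {F : Type*} [Fintype F] [DecidableEq F] (M : Subgroup (Equiv.Perm F))
    (h1 : ∀ σ ∈ M, ∀ y y', y ≠ y' → σ y = y → σ y' = y' → σ = 1)
    (h2 : ∀ y y' z z' : F, y ≠ y' → z ≠ z' → ∃ σ ∈ M, σ y = z ∧ σ y' = z')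
    (hodd : ¬ 2 ∣ Fintype.card F) (hF : 2 ≤ Fintype.card F) {y : F} {σ τ : Equiv.Perm F}
    (hσ : σ ∈ M) (hτ : τ ∈ M) (hσ2 : σ ^ 2 = 1) (hτ2 : τ ^ 2 = 1) (hσ1 : σ ≠ 1) (hτ1 : τ ≠ 1)
    (hσy : σ y = y) (hτy : τ y = y) : σ = τ := by
  classical
  set I : Finset (Equiv.Perm F) := Finset.univ.filter (fun σ => σ ∈ M ∧ σ ^ 2 = 1 ∧ σ ≠ 1) with hI
  have memI : ∀ σ, σ ∈ I ↔ σ ∈ M ∧ σ ^ 2 = 1 ∧ σ ≠ 1 := by intro σ; simp [hI]
  -- moving elements
  have hmove : ∀ y : F, (I.filter (fun σ => ¬ σ y = y)).card = Fintype.card F - 1 := by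
    intro y
    rw [← Finset.card_univ, ← Finset.card_erase_of_mem (Finset.mem_univ y)]
    apply Finset.card_nbij (fun σ => σ y)
    · intro σ hs
      simp only [Finset.coe_filter, Set.mem_ofPred_eq] at hs
      simp only [Finset.coe_erase, Finset.coe_univ, Set.mem_sdiff, Set.mem_univ, Set.mem_singleton_iff, true_and]
      exact hs.2
    · intro σ hs τ ht hst
      simp only [Finset.coe_filter, Set.mem_ofPred_eq] at hs ht
      simp only at hst
      obtain ⟨hsM, hs2, hs1⟩ := (memI σ).mp hs.1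
      obtain ⟨htM, ht2, ht1⟩ := (memI τ).mp ht.1
      have e1 : σ (σ y) = y := by
        have := congrArg (fun f => f y) hs2
        simpa [pow_two] using this
      have e2 : τ (τ y) = y := by
        have := congrArg (fun f => f y) ht2
        simpa [pow_two] using this
      have h3 : τ⁻¹ * σ = 1 := by
        refine h1 _ (mul_mem (inv_mem htM) hsM) y (σ y) (fun h => hs.2 h.symm) ?_ ?_
        · rw [Equiv.Perm.mul_apply, hst]; simp
        · rw [Equiv.Perm.mul_apply, e1, Equiv.Perm.inv_eq_iff_eq, hst, e2]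
      exact (inv_mul_eq_one.mp h3).symm
    · intro z hz
      simp only [Finset.coe_erase, Finset.coe_univ, Set.mem_sdiff, Set.mem_univ, Set.mem_singleton_iff, true_and] at hz
      obtain ⟨σ, hsM, hs1, hs2⟩ := h2 y z z y (fun h => hz h.symm) hz
      refine ⟨σ, ?_, hs1⟩
      simp only [Finset.coe_filter, Set.mem_ofPred_eq]
      refine ⟨(memI σ).mpr ⟨hsM, ?_, ?_⟩, ?_⟩
      · refine h1 _ (pow_mem hsM 2) y z (fun h => hz h.symm) ?_ ?_
        · rw [pow_two, Equiv.Perm.mul_apply, hs1, hs2]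
        · rw [pow_two, Equiv.Perm.mul_apply, hs2, hs1]
      · rintro rfl
        apply hz; simpa using hs1.symm
      · rw [hs1]; exact hz
  have hfix : ∀ y : F, (I.filter (fun σ => σ y = y)).card + (Fintype.card F - 1) = I.card := by
    intro y
    rw [← hmove y]
    exact Finset.card_filter_add_card_filter_not (s := I) (fun σ => σ y = y)
  have hsum : ∑ y : F, (I.filter (fun σ => σ y = y)).card = I.card := by
    have e : ∀ y : F, (I.filter (fun σ => σ y = y)).card = ∑ σ ∈ I, if σ y = y then 1 else 0 := by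
      intro y; rw [Finset.card_filter]
    rw [Finset.sum_congr rfl (fun y _ => e y), Finset.sum_comm]
    rw [Finset.card_eq_sum_ones]
    apply Finset.sum_congr rfl
    intro σ hs
    obtain ⟨hsM, hs2, hs1⟩ := (memI σ).mp hs
    obtain ⟨y, hy, hyu⟩ := s2t_permA M h1 hodd hsM hs2 hs1
    rw [Finset.sum_eq_single y]
    · simp [hy]
    · intro z _ hzy
      rw [if_neg]
      intro h; exact hzy (hyu z h)
    · intro h; exact absurd (Finset.mem_univ y) h
  have hconst : ∀ z : F, (I.filter (fun σ => σ z = z)).card = (I.filter (fun σ => σ y = y)).card := by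
    intro z
    have := hfix z
    have := hfix y
    omega
  rw [Finset.sum_congr rfl (fun z _ => hconst z), Finset.sum_const, Finset.card_univ, smul_eq_mul] at hsum
  have h5 := hfix y
  set i := (I.filter (fun σ => σ y = y)).card with hi
  have hi1 : i = 1 := by
    obtain ⟨m, hm⟩ := Nat.exists_eq_add_of_le hF
    rw [hm] at hsum h5
    have : (2 + m) * i = i + (1 + m) := by omega
    have h6 : (1 + m) * i = (1 + m) * 1 := by nlinarith
    exact Nat.eq_of_mul_eq_mul_left (by omega) h6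
  rw [hi, Finset.card_eq_one] at hi1
  obtain ⟨ρ, hρ⟩ := hi1
  have a1 : σ ∈ I.filter (fun σ => σ y = y) := by
    rw [Finset.mem_filter]; exact ⟨(memI σ).mpr ⟨hσ, hσ2, hσ1⟩, hσy⟩
  have a2 : τ ∈ I.filter (fun σ => σ y = y) := by
    rw [Finset.mem_filter]; exact ⟨(memI τ).mpr ⟨hτ, hτ2, hτ1⟩, hτy⟩
  rw [hρ, Finset.mem_singleton] at a1 a2
  rw [a1, a2]


variable {G X : Type*} [Group G] [Finite G] [Finite X] [MulAction G X] {D : X → X → Prop} {K : X → Subgroup G}
  {k h l lam mu : ℕ}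

/-- the Sylow 2-subgroup of `K b` -/
noncomputable def s2tT (K : X → Subgroup G) (b : X) : Subgroup G :=
  ((default : Sylow 2 (K b)) : Subgroup (K b)).map (K b).subtype

theorem s2t_memT (R : Rk G X D K k h l lam mu) (b : X) (x : G) :
    x ∈ s2tT K b ↔ x ∈ K b ∧ ∃ n : ℕ, x ^ (2 ^ n) = 1 := by
  have : Fact (Nat.Prime 2) := ⟨Nat.prime_two⟩
  have hnil : Group.IsNilpotent (K b) := R.Knil b
  set S : Sylow 2 (K b) := default with hS
  have hSn : (S : Subgroup (K b)).Normal := S.normal_of_normalizerCondition Group.normalizerCondition_of_isNilpotent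
  constructor
  · rintro ⟨y, hy, rfl⟩
    refine ⟨y.2, ?_⟩
    obtain ⟨n, hn⟩ := S.isPGroup' ⟨y, hy⟩
    refine ⟨n, ?_⟩
    have := congrArg (fun z : S => ((z : K b) : G)) hn
    simpa using this
  · rintro ⟨hx, n, hn⟩
    have hp : IsPGroup 2 (zpowers (⟨x, hx⟩ : K b)) := by
      rw [IsPGroup.iff_orderOf]
      rintro ⟨z, hz⟩
      obtain ⟨m, rfl⟩ := mem_zpowers_iff.mp hz
      have h3 : orderOf (⟨(⟨x, hx⟩ : K b) ^ m, hz⟩ : zpowers (⟨x, hx⟩ : K b)) ∣ 2 ^ n := by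
        apply orderOf_dvd_of_pow_eq_one
        apply Subtype.ext
        apply Subtype.ext
        change (x ^ m) ^ (2 ^ n) = 1
        rw [← zpow_natCast, ← zpow_mul, mul_comm, zpow_mul, zpow_natCast, hn, one_zpow]
      obtain ⟨j, _, hj⟩ := (Nat.dvd_prime_pow Nat.prime_two).mp h3
      exact ⟨j, hj⟩
    obtain ⟨Q, hQ⟩ := hp.exists_le_sylow
    have hQS : Q = S := by
      have := Sylow.unique_of_normal S hSn
      exact Subsingleton.elim _ _
    refine ⟨⟨x, hx⟩, ?_, rfl⟩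
    rw [hQS] at hQ
    exact hQ (mem_zpowers _)

theorem s2t_cardT (R : Rk G X D K k h l lam mu) (b : X) : Nat.card (s2tT K b) = 2 ^ (k.factorization 2) := by
  have : Fact (Nat.Prime 2) := ⟨Nat.prime_two⟩
  unfold s2tT
  rw [Subgroup.card_map_of_injective (K b).subtype_injective, Sylow.card_eq_multiplicity, R.Kcard b]

theorem s2t_conjT (R : Rk G X D K k h l lam mu) (g : G) (b : X) {x : G} (hx : x ∈ s2tT K b) :
    g * x * g⁻¹ ∈ s2tT K (g • b) := by
  obtain ⟨h1, n, hn⟩ := (s2t_memT R b x).mp hx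
  refine (s2t_memT R _ _).mpr ⟨R.Kconj g b x h1, n, ?_⟩
  rw [conj_pow, hn, mul_one, mul_inv_cancel]

/-- an element of `K a` fixing `y` lies in `K y` -/
theorem s2t_KC (R : Rk G X D K k h l lam mu)
    (hpar : ∀ a c, a ≠ c → ¬ D a c → ∀ g : G, g • a = a → g • c = c → g ∈ K a) {a y : X} {x : G}
    (hx : x ∈ K a) (hy : x • y = y) : x ∈ K y := by
  by_cases hay : a = y
  · rw [← hay]; exact hx
  by_cases hD : D a y
  · rw [R.Kfree a y x hx hD hy]; exact one_mem _
  · exact hpar y a (Ne.symm hay) (fun h => hD (R.symm _ _ h)) x hy (R.Kst a x hx)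

/-- an element of order 2 modulo `P = K a ⊓ K c`, normalizing `P`, fixing `a` -/
theorem s2t_exists (R : Rk G X D K k h l lam mu) (hk : Even k) {a c : X} (hac : a ≠ c) :
    ∃ t : G, t ∈ K a ∧ t ∉ K a ⊓ K c ∧ t ^ 2 ∈ K a ⊓ K c ∧
      t ∈ normalizer ((K a ⊓ K c : Subgroup G) : Set G) := by
  have : Fact (Nat.Prime 2) := ⟨Nat.prime_two⟩
  -- T a is not contained in K c
  have hnle : ¬ s2tT K a ≤ K c := by
    intro hle
    have hTT : s2tT K a ≤ s2tT K c := by
      intro x hx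
      exact (s2t_memT R c x).mpr ⟨hle hx, ((s2t_memT R a x).mp hx).2⟩
    have heq : s2tT K a = s2tT K c := by
      apply Subgroup.eq_of_le_of_card_ge hTT
      rw [s2t_cardT R a, s2t_cardT R c]
    have h1 := R.prim2 a c (s2tT K a) hac (by
      intro g hg x hx
      rcases hg with hg | hg
      · have := s2t_conjT R g a hx
        rwa [hg] at this
      · rw [heq] at hx ⊢
        have := s2t_conjT R g c hx
        rwa [hg] at this) (fun x hx => R.Kst a x ((s2t_memT R a x).mp hx).1)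
    have h2 := s2t_cardT R a
    rw [h1, Subgroup.card_bot] at h2
    have hk3 := R.k2
    have h3 : k.factorization 2 = 0 := by
      by_contra h0
      have : 2 ≤ 2 ^ k.factorization 2 := by
        calc 2 = 2 ^ 1 := by norm_num
          _ ≤ _ := Nat.pow_le_pow_right (by norm_num) (Nat.one_le_iff_ne_zero.mpr h0)
      omega
    have h4 := (Nat.Prime.factorization_pos_of_dvd Nat.prime_two (by omega) hk.two_dvd)
    omega
  -- the 2-group T a and its subgroup P ⊓ T a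
  set S := s2tT K a with hS
  have hSp : IsPGroup 2 S := by
    intro x
    obtain ⟨_, n, hn⟩ := (s2t_memT R a x).mp x.2
    exact ⟨n, Subtype.ext (by simpa using hn)⟩
  have hSnil : Group.IsNilpotent S := hSp.isNilpotent
  set P' : Subgroup S := (K a ⊓ K c).subgroupOf S with hP'
  have hP'top : P' < ⊤ := by
    rw [lt_top_iff_ne_top]
    intro htop
    apply hnle
    intro x hx
    have : (⟨x, hx⟩ : S) ∈ P' := by rw [htop]; trivial
    exact (mem_subgroupOf.mp this).2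
  have hlt := Group.normalizerCondition_of_isNilpotent (G := S) P' hP'top
  obtain ⟨t, ht1, ht2⟩ := SetLike.exists_of_lt hlt
  -- minimal power
  obtain ⟨n, hn⟩ := hSp t
  have hex : ∃ j : ℕ, t ^ (2 ^ j) ∈ P' := ⟨n, by rw [hn]; exact one_mem _⟩
  classical
  set j := Nat.find hex with hj
  have hj1 : t ^ (2 ^ j) ∈ P' := Nat.find_spec hex
  have hj0 : j ≠ 0 := by
    intro h0
    rw [h0] at hj1
    exact ht2 (by simpa using hj1)
  obtain ⟨i, hi⟩ := Nat.exists_eq_succ_of_ne_zero hj0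
  have hi1 : t ^ (2 ^ i) ∉ P' := Nat.find_min hex (by omega)
  have hi2 : (t ^ (2 ^ i)) ^ 2 ∈ P' := by
    rw [← pow_mul, ← pow_succ]
    rw [hi] at hj1; exact hj1
  have hiN : t ^ (2 ^ i) ∈ normalizer (P' : Set S) := pow_mem ht1 _
  set s := t ^ (2 ^ i) with hs
  obtain ⟨hsa, m, hm⟩ := (s2t_memT R a (s : G)).mp s.2
  have hsn : (s : G) ∉ K a ⊓ K c := fun hh => hi1 (mem_subgroupOf.mpr hh)
  have hs2 : (s : G) ^ 2 ∈ K a ⊓ K c := by
    have := mem_subgroupOf.mp hi2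
    simpa using this
  -- one direction of normalization
  have key : ∀ g : S, g ∈ normalizer (P' : Set S) → ∀ x ∈ K a ⊓ K c, (g : G) * x * (g : G)⁻¹ ∈ K a ⊓ K c := by
    intro g hg x hx
    have hga : (g : G) ∈ K a := ((s2t_memT R a g).mp g.2).1
    obtain ⟨e, q, hq, hxe⟩ : ∃ e q : ℕ, ¬ 2 ∣ q ∧ orderOf x = 2 ^ e * q := by
      have := Nat.exists_eq_pow_mul_and_not_dvd (n := orderOf x) (orderOf_pos x).ne' 2 (by norm_num)
      exact this
    have hcop : IsCoprime ((2 : ℤ) ^ e) (q : ℤ) := by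
      have : Nat.Coprime (2 ^ e) q := Nat.Coprime.pow_left _ ((Nat.Prime.coprime_iff_not_dvd Nat.prime_two).mpr hq)
      have := Nat.isCoprime_iff_coprime.mpr this
      simpa using this
    obtain ⟨u, v, huv⟩ := hcop
    have hx1 : x ^ (u * 2 ^ e) * x ^ (v * q) = x := by
      rw [← zpow_add, huv, zpow_one]
    -- the odd part commutes with g
    have hodd : (g : G) * x ^ (u * 2 ^ e) = x ^ (u * 2 ^ e) * g := by
      apply H23Nilp.commute_of_coprime_of_mem (R.Knil a) hga ((K a).zpow_mem hx.1 _)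
      obtain ⟨_, n', hn'⟩ := (s2t_memT R a g).mp g.2
      have o1 : orderOf (g : G) ∣ 2 ^ n' := orderOf_dvd_of_pow_eq_one hn'
      have o2 : orderOf (x ^ (u * 2 ^ e)) ∣ q := by
        apply orderOf_dvd_of_pow_eq_one
        rw [← zpow_natCast, ← zpow_mul, show (u * 2 ^ e * (q : ℤ)) = ((2 ^ e * q : ℕ) : ℤ) * u by push_cast; ring,
          zpow_mul, zpow_natCast, ← hxe, pow_orderOf_eq_one, one_zpow]
      exact Nat.Coprime.coprime_dvd_left o1 (Nat.Coprime.coprime_dvd_right o2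
        (Nat.Coprime.pow_left _ ((Nat.Prime.coprime_iff_not_dvd Nat.prime_two).mpr hq)))
    -- the 2-part
    have h2part : x ^ (v * q) ∈ S := by
      refine (s2t_memT R a _).mpr ⟨(K a).zpow_mem hx.1 _, e, ?_⟩
      rw [← zpow_natCast, ← zpow_mul, show (v * (q : ℤ) * ((2 ^ e : ℕ) : ℤ)) = ((2 ^ e * q : ℕ) : ℤ) * v by push_cast; ring,
          zpow_mul, zpow_natCast, ← hxe, pow_orderOf_eq_one, one_zpow]
    have h2P : (⟨x ^ (v * q), h2part⟩ : S) ∈ P' := mem_subgroupOf.mpr (zpow_mem hx _)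
    have h2c := (mem_normalizer_iff.mp hg _).mp h2P
    have h2c' : (g : G) * x ^ (v * q) * (g : G)⁻¹ ∈ K a ⊓ K c := by
      have := mem_subgroupOf.mp h2c
      simpa using this
    have : (g : G) * x * (g : G)⁻¹ = x ^ (u * 2 ^ e) * ((g : G) * x ^ (v * q) * (g : G)⁻¹) := by
      conv_lhs => rw [← hx1]
      rw [← mul_assoc, hodd]; group
    rw [this]
    exact mul_mem (zpow_mem hx _) h2c'
  refine ⟨s, hsa, hsn, hs2, ?_⟩
  rw [mem_normalizer_iff]
  intro x
  constructor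
  · intro hx
    exact key s hiN x hx
  · intro hx
    have := key s⁻¹ (inv_mem hiN) _ hx
    have e : ((s⁻¹ : S) : G) * ((s : G) * x * (s : G)⁻¹) * (((s⁻¹ : S) : G))⁻¹ = x := by
      rw [Subgroup.coe_inv]; group
    rwa [e] at this


theorem s2t (R : Rk G X D K k h l lam mu) (_hodd : Odd h)
    (hpar : ∀ a c, a ≠ c → ¬ D a c → ∀ g : G, g • a = a → g • c = c → g ∈ K a) (hk : Even k) {a c : X} (hac : a ≠ c)
    (hN : ¬ D a c) (hne : K a ⊓ K c ≠ ⊥) :
    (∀ y y' : X, (∀ x ∈ K a ⊓ K c, x • y = y) → (∀ x ∈ K a ⊓ K c, x • y' = y') → y ≠ y' → ¬ D y y' ∧ K y ⊓ K y' = K a ⊓ K c) ∧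
    (∀ g : G, g ∈ normalizer ((K a ⊓ K c : Subgroup G) : Set G) → g ^ 2 ∈ K a ⊓ K c → g ∉ K a ⊓ K c →
      ∃! y : X, (∀ x ∈ K a ⊓ K c, x • y = y) ∧ g • y = y) ∧
    (∀ g1 g2 : G, g1 ∈ normalizer ((K a ⊓ K c : Subgroup G) : Set G) → g2 ∈ normalizer ((K a ⊓ K c : Subgroup G) : Set G) →
      g1 ^ 2 ∈ K a ⊓ K c → g2 ^ 2 ∈ K a ⊓ K c → g1 ∉ K a ⊓ K c → g2 ∉ K a ⊓ K c → g1 • a = a → g2 • a = a →
      g1 * g2⁻¹ ∈ K a ⊓ K c) ∧
    (∃ y : X, (∀ x ∈ K a ⊓ K c, x • y = y) ∧ y ≠ a ∧ y ≠ c ∧ ∀ g ∈ normalizer ((K a ⊓ K c : Subgroup G) : Set G),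
      g • y = y → g ^ 2 ∈ K a ⊓ K c → g ∉ K a ⊓ K c → g • a = c ∧ g • c = a) := by
  classical
  set P : Subgroup G := K a ⊓ K c with hP
  have hPa : ∀ x ∈ P, x • a = a := fun x hx => R.Kst a x hx.1
  have hPc : ∀ x ∈ P, x • c = c := fun x hx => R.Kst c x hx.2
  have hKy : ∀ y : X, (∀ x ∈ P, x • y = y) → P ≤ K y := fun y hy x hx => s2t_KC R hpar hx.1 (hy x hx)
  -- (1)
  have P1 : ∀ y y' : X, (∀ x ∈ P, x • y = y) → (∀ x ∈ P, x • y' = y') → y ≠ y' → ¬ D y y' ∧ K y ⊓ K y' = P := by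
    intro y y' hy hy' hyy
    have hle : P ≤ K y ⊓ K y' := le_inf (hKy y hy) (hKy y' hy')
    have hD : ¬ D y y' := by
      intro hD
      apply hne
      rw [eq_bot_iff]
      intro x hx
      exact mem_bot.mpr (R.Kfree y y' x (hle hx).1 hD (hy' x hx))
    refine ⟨hD, ?_⟩
    obtain ⟨g, hg1, hg2⟩ := R.trN y y' a c hyy hD hac hN
    have hcard : Nat.card (K y ⊓ K y' : Subgroup G) ≤ Nat.card P := by
      have hmap : (K y ⊓ K y' : Subgroup G).map (MulAut.conj g).toMonoidHom ≤ P := by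
        rintro _ ⟨x, hx, rfl⟩
        refine mem_inf.mpr ⟨?_, ?_⟩
        · have := R.Kconj g y x hx.1
          rw [hg1] at this
          simpa using this
        · have := R.Kconj g y' x hx.2
          rw [hg2] at this
          simpa using this
      calc Nat.card (K y ⊓ K y' : Subgroup G)
          = Nat.card ((K y ⊓ K y' : Subgroup G).map (MulAut.conj g).toMonoidHom) :=
            (Subgroup.card_map_of_injective (MulAut.conj g).injective).symm
        _ ≤ Nat.card P := Subgroup.card_le_of_le hmap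
    exact (Subgroup.eq_of_le_of_card_ge hle hcard).symm
  -- two transitivity
  have T2 : ∀ y y' z z' : X, (∀ x ∈ P, x • y = y) → (∀ x ∈ P, x • y' = y') → (∀ x ∈ P, x • z = z) →
      (∀ x ∈ P, x • z' = z') → y ≠ y' → z ≠ z' → ∃ g ∈ normalizer (P : Set G), g • y = z ∧ g • y' = z' := by
    intro y y' z z' hy hy' hz hz' hyy hzz
    obtain ⟨h1, h2⟩ := P1 y y' hy hy' hyy
    obtain ⟨h3, h4⟩ := P1 z z' hz hz' hzz
    obtain ⟨g, hg1, hg2⟩ := R.trN y y' z z' hyy h1 hzz h3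
    refine ⟨g, ?_, hg1, hg2⟩
    rw [mem_normalizer_iff]
    intro x
    constructor
    · intro hx
      change x ∈ P at hx
      change g * x * g⁻¹ ∈ P
      rw [← h2] at hx
      rw [← h4]
      refine mem_inf.mpr ⟨?_, ?_⟩
      · have := R.Kconj g y x hx.1
        rwa [hg1] at this
      · have := R.Kconj g y' x hx.2
        rwa [hg2] at this
    · intro hx
      change g * x * g⁻¹ ∈ P at hx
      change x ∈ P
      rw [← h4] at hx
      rw [← h2]
      have e : g⁻¹ * (g * x * g⁻¹) * g⁻¹⁻¹ = x := by group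
      refine mem_inf.mpr ⟨?_, ?_⟩
      · have := R.Kconj g⁻¹ z _ hx.1
        rwa [e, ← hg1, inv_smul_smul] at this
      · have := R.Kconj g⁻¹ z' _ hx.2
        rwa [e, ← hg2, inv_smul_smul] at this
  have ST : ∀ g : G, ∀ y y' : X, (∀ x ∈ P, x • y = y) → (∀ x ∈ P, x • y' = y') → y ≠ y' → g • y = y → g • y' = y' →
      g ∈ P := by
    intro g y y' hy hy' hyy hg hg'
    obtain ⟨h1, h2⟩ := P1 y y' hy hy' hyy
    rw [← h2]
    exact mem_inf.mpr ⟨hpar y y' hyy h1 g hg hg', hpar y' y (Ne.symm hyy) (fun hh => h1 (R.symm _ _ hh)) g hg' hg⟩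
  -- the action on F
  let F := {y : X // ∀ x ∈ P, x • y = y}
  have hnorm : ∀ g ∈ normalizer (P : Set G), ∀ y : X, (∀ x ∈ P, x • y = y) → ∀ x ∈ P, x • (g • y) = g • y := by
    intro g hg y hy x hx
    have h1 : g⁻¹ * x * g ∈ P := by
      have h2 := (mem_normalizer_iff.mp hg (g⁻¹ * x * g)).mpr (by
        have e : g * (g⁻¹ * x * g) * g⁻¹ = x := by group
        rw [e]; exact hx)
      exact h2
    have h2 := hy _ h1
    calc x • (g • y) = g • ((g⁻¹ * x * g) • y) := by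
          rw [← mul_smul, ← mul_smul]; congr 1; group
      _ = g • y := by rw [h2]
  let N : Subgroup G := normalizer (P : Set G)
  let act : MulAction N F :=
    { smul := fun g y => ⟨(g : G) • (y : X), hnorm g g.2 y y.2⟩
      one_smul := fun y => Subtype.ext (one_smul G (y : X))
      mul_smul := fun g g' y => Subtype.ext (mul_smul (g : G) (g' : G) (y : X)) }
  have : Fintype F := Fintype.ofFinite F
  let f : N →* Equiv.Perm F := MulAction.toPermHom N F
  have fval : ∀ (g : N) (y : F), ((f g y : F) : X) = (g : G) • (y : X) := fun g y => rfl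
  let M : Subgroup (Equiv.Perm F) := f.range
  let fa : F := ⟨a, hPa⟩
  let fc : F := ⟨c, hPc⟩
  have hfac : fa ≠ fc := fun hh => hac (congrArg Subtype.val hh)
  have hfP : ∀ g : N, (g : G) ∈ P → f g = 1 := by
    intro g hg
    apply Equiv.ext
    intro y
    apply Subtype.ext
    rw [fval]
    exact y.2 g hg
  have hfP' : ∀ g : N, f g = 1 → (g : G) ∈ P := by
    intro g hg
    apply ST g a c hPa hPc hac
    · have := congrArg (fun s : Equiv.Perm F => ((s fa : F) : X)) hg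
      simpa [fval] using this
    · have := congrArg (fun s : Equiv.Perm F => ((s fc : F) : X)) hg
      simpa [fval] using this
  have h1 : ∀ σ ∈ M, ∀ y y', y ≠ y' → σ y = y → σ y' = y' → σ = 1 := by
    rintro _ ⟨g, rfl⟩ y y' hyy hy hy'
    apply hfP
    exact ST g y y' y.2 y'.2 (fun hh => hyy (Subtype.ext hh)) (congrArg Subtype.val hy) (congrArg Subtype.val hy')
  have h2 : ∀ y y' z z' : F, y ≠ y' → z ≠ z' → ∃ σ ∈ M, σ y = z ∧ σ y' = z' := by
    intro y y' z z' hyy hzz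
    obtain ⟨g, hg, hg1, hg2⟩ := T2 y y' z z' y.2 y'.2 z.2 z'.2 (fun hh => hyy (Subtype.ext hh)) (fun hh => hzz (Subtype.ext hh))
    exact ⟨f ⟨g, hg⟩, ⟨⟨g, hg⟩, rfl⟩, Subtype.ext hg1, Subtype.ext hg2⟩
  have hF2 : 2 ≤ Fintype.card F := by
    have : Nontrivial F := ⟨fa, fc, hfac⟩
    exact Fintype.one_lt_card
  have hFodd : ¬ 2 ∣ Fintype.card F := by
    intro hdvd
    obtain ⟨t, hta, htP, ht2, htN⟩ := s2t_exists R hk hac
    have : Fact (Nat.Prime 2) := ⟨Nat.prime_two⟩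
    have hta' : t • a = a := R.Kst a t hta
    obtain ⟨b, hb, hba⟩ := Equiv.Perm.exists_fixed_point_of_prime' (p := 2) (n := 1) hdvd (σ := f ⟨t, htN⟩) (by
      rw [pow_one, ← map_pow]
      exact hfP _ ht2) (a := fa) (Subtype.ext hta')
    apply htP
    exact ST t b a b.2 hPa (fun hh => hba (Subtype.ext hh)) (congrArg Subtype.val hb) hta'
  have P2 : ∀ g : G, g ∈ normalizer (P : Set G) → g ^ 2 ∈ P → g ∉ P → ∃! y : X, (∀ x ∈ P, x • y = y) ∧ g • y = y := by
    intro g hg hg2 hgP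
    obtain ⟨y, hy, hyu⟩ := s2t_permA M h1 hFodd (σ := f ⟨g, hg⟩) ⟨⟨g, hg⟩, rfl⟩ (by
      rw [← map_pow]; exact hfP _ hg2) (fun hh => hgP (hfP' _ hh))
    refine ⟨y, ⟨y.2, congrArg Subtype.val hy⟩, ?_⟩
    rintro z ⟨hz, hz'⟩
    exact congrArg Subtype.val (hyu ⟨z, hz⟩ (Subtype.ext hz'))
  have P3 : ∀ y : X, (∀ x ∈ P, x • y = y) → ∀ g1 g2 : G, g1 ∈ normalizer (P : Set G) → g2 ∈ normalizer (P : Set G) →
      g1 ^ 2 ∈ P → g2 ^ 2 ∈ P → g1 ∉ P → g2 ∉ P → g1 • y = y → g2 • y = y → g1 * g2⁻¹ ∈ P := by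
    intro y hy g1 g2 hg1 hg2 h12 h22 h1P h2P h1y h2y
    have heq := s2t_permB M h1 h2 hFodd hF2 (y := ⟨y, hy⟩) (σ := f ⟨g1, hg1⟩) (τ := f ⟨g2, hg2⟩) ⟨_, rfl⟩ ⟨_, rfl⟩
      (by rw [← map_pow]; exact hfP _ h12) (by rw [← map_pow]; exact hfP _ h22)
      (fun hh => h1P (hfP' _ hh)) (fun hh => h2P (hfP' _ hh)) (Subtype.ext h1y) (Subtype.ext h2y)
    have h3 : f (⟨g1, hg1⟩ * (⟨g2, hg2⟩ : N)⁻¹) = 1 := by
      rw [map_mul, map_inv, heq, mul_inv_cancel]
    exact hfP' _ h3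
  refine ⟨P1, P2, P3 a hPa, ?_⟩
  obtain ⟨g0, hg0, h0a, h0c⟩ := T2 a c c a hPa hPc hPc hPa hac (Ne.symm hac)
  have h0P : g0 ∉ P := fun hh => hac (by rw [← h0a]; exact (hPa g0 hh).symm)
  have h02 : g0 ^ 2 ∈ P := by
    apply ST _ a c hPa hPc hac
    · rw [pow_two, mul_smul, h0a, h0c]
    · rw [pow_two, mul_smul, h0c, h0a]
  obtain ⟨y, ⟨hy, h0y⟩, _⟩ := P2 g0 hg0 h02 h0P
  refine ⟨y, hy, ?_, ?_, ?_⟩
  · rintro rfl
    exact hac (h0y.symm.trans h0a)
  · rintro rfl
    exact hac (h0c.symm.trans h0y)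
  · intro g hg hgy hg2 hgP
    have h3 := P3 y hy g g0 hg hg0 hg2 h02 hgP h0P hgy h0y
    constructor
    · calc g • a = (g * g0⁻¹) • (g0 • a) := by rw [← mul_smul]; congr 1; group
        _ = c := by rw [h0a]; exact hPc _ h3
    · calc g • c = (g * g0⁻¹) • (g0 • c) := by rw [← mul_smul]; congr 1; group
        _ = a := by rw [h0c]; exact hPa _ h3

end Cfsg.Agent.Lib.FR
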