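import Cfsg.Agent.Lib.FRa

/-! S2207, piece SET1: the self-paired orbital relation of a rank three group of even order. -/

set_option autoImplicit false

namespace Cfsg.Agent.Lib.FR

open MulAction Subgroup

theorem set1_third {G X : Type*} [Group G] [Finite G] [Fintype X] [MulAction G X] (A : X)
    (h3 : Nat.card (MulAction.orbitRel.Quotient ↥(MulAction.stabilizer G A) X) = 3) (B : X) (hBA : B ≠ A) :
    (∀ x y : X, x ≠ A → y ≠ A → (∀ h ∈ stabilizer G A, h • B ≠ x) → (∀ h ∈ stabilizer G A, h • B ≠ y) →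
      ∃ h ∈ stabilizer G A, h • x = y) ∧ (∃ x : X, x ≠ A ∧ ∀ h ∈ stabilizer G A, h • B ≠ x) := by
  classical
  set Q := MulAction.orbitRel.Quotient ↥(MulAction.stabilizer G A) X with hQ
  let q : X → Q := fun x => Quotient.mk'' x
  have hq : ∀ x y : X, q x = q y ↔ ∃ h ∈ stabilizer G A, h • y = x := by
    intro x y
    constructor
    · intro h
      have h1 : (MulAction.orbitRel ↥(stabilizer G A) X) x y := Quotient.exact h
      rw [MulAction.orbitRel_apply] at h1
      obtain ⟨g, hg⟩ := h1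
      exact ⟨g.1, g.2, hg⟩
    · rintro ⟨g, hg, h⟩
      refine Quotient.sound (s := MulAction.orbitRel ↥(stabilizer G A) X) ?_
      change (MulAction.orbitRel ↥(stabilizer G A) X) x y
      rw [MulAction.orbitRel_apply]
      exact ⟨⟨g, hg⟩, h⟩
  haveI : Finite Q := Nat.finite_of_card_ne_zero (by rw [h3]; norm_num)
  haveI : Fintype Q := Fintype.ofFinite Q
  have hcard : Fintype.card Q = 3 := by rw [← Nat.card_eq_fintype_card]; exact h3
  have hqA : ∀ x : X, x ≠ A → q x ≠ q A := by
    intro x hx h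
    obtain ⟨g, hg, h1⟩ := (hq x A).1 h
    rw [mem_stabilizer_iff] at hg
    rw [hg] at h1
    exact hx h1.symm
  constructor
  · intro x y hx hy hBx hBy
    by_contra hne
    have h1 : q x ≠ q B := by
      intro h
      obtain ⟨g, hg, h1⟩ := (hq x B).1 h
      exact hBx g hg h1
    have h2 : q y ≠ q B := by
      intro h
      obtain ⟨g, hg, h1⟩ := (hq y B).1 h
      exact hBy g hg h1
    have h4 : q y ≠ q x := by
      intro h
      obtain ⟨g, hg, h1⟩ := (hq y x).1 h
      exact hne ⟨g, hg, h1⟩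
    have h5 : ({q A, q B, q x, q y} : Finset Q).card = 4 := by
      rw [Finset.card_insert_of_notMem, Finset.card_insert_of_notMem, Finset.card_insert_of_notMem,
        Finset.card_singleton]
      · simp only [Finset.mem_singleton]
        exact fun h => h4 h.symm
      · simp only [Finset.mem_insert, Finset.mem_singleton, not_or]
        exact ⟨fun h => h1 h.symm, fun h => h2 h.symm⟩
      · simp only [Finset.mem_insert, Finset.mem_singleton, not_or]
        exact ⟨fun h => hqA B hBA h.symm, fun h => hqA x hx h.symm, fun h => hqA y hy h.symm⟩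
    have h6 := Finset.card_le_univ ({q A, q B, q x, q y} : Finset Q)
    rw [h5, hcard] at h6
    omega
  · by_contra hne
    push Not at hne
    have h5 : (Finset.univ : Finset Q) ⊆ {q A, q B} := by
      intro z _
      obtain ⟨x, rfl⟩ := Quotient.exists_rep z
      rw [Finset.mem_insert, Finset.mem_singleton]
      by_cases hx : x = A
      · left; rw [hx]
      · right
        obtain ⟨g, hg, h⟩ := hne x hx
        exact (hq x B).2 ⟨g, hg, h⟩
    have h6 := Finset.card_le_card h5
    rw [Finset.card_univ, hcard] at h6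
    have h7 := Finset.card_le_two (a := q A) (b := q B)
    omega

/-- SET1 -/
theorem set1 {G X : Type*} [Group G] [Finite G] [Fintype X] [MulAction G X] [FaithfulSMul G X] (heven : Even (Nat.card G)) (hprim : MulAction.IsPreprimitive G X) (A : X)
    (h3 : Nat.card (MulAction.orbitRel.Quotient ↥(MulAction.stabilizer G A) X) = 3) (B : X) (hBA : B ≠ A)
    (hfaith : ∀ g ∈ MulAction.stabilizer G A, (∀ h ∈ MulAction.stabilizer G A, g • (h • B) = h • B) → g = 1)
    (hfix : ∃ g ∈ MulAction.stabilizer G A, g ≠ 1 ∧ g • B = B)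
    (hfrob : ∀ g ∈ MulAction.stabilizer G A, ∀ h ∈ MulAction.stabilizer G A, g • B = B → g • (h • B) = h • B → h • B ≠ B → g = 1) :
    ∃ D : X → X → Prop, R0 G X D := by
  classical
  have _ := hfaith
  obtain ⟨hthird, C, hCA, hCB⟩ := set1_third A h3 B hBA
  haveI := hprim
  have htr : ∀ a a' : X, ∃ g : G, g • a = a' := fun a a' => MulAction.exists_smul_eq G a a'
  let D : X → X → Prop := fun x y => ∃ g : G, g • A = x ∧ g • B = y
  let N : X → X → Prop := fun x y => ∃ g : G, g • A = x ∧ g • C = y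
  -- trichotomy
  have hND : ∀ x y : X, x ≠ y → ¬ D x y → N x y := by
    intro x y hxy hD
    obtain ⟨g, hg⟩ := htr A x
    have h1 : g⁻¹ • y ≠ A := by
      intro h
      rw [inv_smul_eq_iff] at h
      exact hxy (hg.symm.trans h.symm)
    have h2 : ∀ h ∈ stabilizer G A, h • B ≠ g⁻¹ • y := by
      intro h hh he
      rw [mem_stabilizer_iff] at hh
      refine hD ⟨g * h, ?_, ?_⟩
      · rw [mul_smul, hh, hg]
      · rw [mul_smul, he, smul_inv_smul]
    obtain ⟨h, hh, he⟩ := hthird C (g⁻¹ • y) hCA h1 hCB h2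
    rw [mem_stabilizer_iff] at hh
    exact ⟨g * h, by rw [mul_smul, hh, hg], by rw [mul_smul, he, smul_inv_smul]⟩
  have hDN : ∀ x y : X, D x y → ¬ N x y := by
    rintro x y ⟨g, hg1, hg2⟩ ⟨g', hg1', hg2'⟩
    refine hCB (g'⁻¹ * g) ?_ ?_
    · rw [mem_stabilizer_iff, mul_smul, hg1, ← hg1', inv_smul_smul]
    · rw [mul_smul, hg2, ← hg2', inv_smul_smul]
  have hirr : ∀ a, ¬ D a a := by
    rintro a ⟨g, h1, h2⟩
    exact hBA (smul_left_cancel g (h2.trans h1.symm))
  have hNirr : ∀ x y, N x y → x ≠ y := by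
    rintro x y ⟨g, h1, h2⟩ h
    exact hCA (smul_left_cancel g ((h2.trans h.symm).trans h1.symm))
  have hsymm : ∀ a b, D a b → D b a := by
    -- an involution
    obtain ⟨t, ht⟩ := exists_prime_orderOf_dvd_card' (G := G) 2 heven.two_dvd
    have ht1 : t ≠ 1 := by
      rintro rfl
      rw [orderOf_one] at ht
      omega
    have ht2 : t * t = 1 := by
      have := pow_orderOf_eq_one t
      rw [ht, pow_two] at this
      exact this
    have hex : ∃ x : X, t • x ≠ x := by
      by_contra hcon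
      push Not at hcon
      apply ht1
      exact FaithfulSMul.eq_of_smul_eq_smul (α := X) (fun x => by rw [hcon x, one_smul])
    obtain ⟨x, hx⟩ := hex
    have htx : t • t • x = x := by rw [smul_smul, ht2, one_smul]
    by_cases hc : D x (t • x)
    · obtain ⟨g, hg1, hg2⟩ := hc
      rintro a b ⟨g', ha, hb⟩
      refine ⟨g' * g⁻¹ * t * g, ?_, ?_⟩
      · rw [mul_smul, hg1, mul_smul, mul_smul, ← hg2, inv_smul_smul, hb]
      · rw [mul_smul, hg2, mul_smul, htx, mul_smul, ← hg1, inv_smul_smul, ha]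
    · obtain ⟨g, hg1, hg2⟩ := hND x (t • x) (fun h => hx h.symm) hc
      have hNs : ∀ a b, N a b → N b a := by
        rintro a b ⟨g', ha, hb⟩
        refine ⟨g' * g⁻¹ * t * g, ?_, ?_⟩
        · rw [mul_smul, hg1, mul_smul, mul_smul, ← hg2, inv_smul_smul, hb]
        · rw [mul_smul, hg2, mul_smul, htx, mul_smul, ← hg1, inv_smul_smul, ha]
      intro a b hab
      by_contra hba
      have hne : b ≠ a := by
        rintro rfl
        exact hirr _ hab
      exact hDN a b hab (hNs _ _ (hND b a hne hba))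
  refine ⟨D, hirr, hsymm, ?_, htr, ?_, ?_, ?_, hprim, ?_, ?_, ?_, ?_⟩
  · rintro g a b ⟨g', ha, hb⟩
    exact ⟨g * g', by rw [mul_smul, ha], by rw [mul_smul, hb]⟩
  · rintro a b a' b' ⟨g, ha, hb⟩ ⟨g', ha', hb'⟩
    refine ⟨g' * g⁻¹, ?_, ?_⟩
    · rw [mul_smul, ← ha, inv_smul_smul, ha']
    · rw [mul_smul, ← hb, inv_smul_smul, hb']
  · intro a c a' c' hac hN hac' hN'
    obtain ⟨g, ha, hc⟩ := hND a c hac hN
    obtain ⟨g', ha', hc'⟩ := hND a' c' hac' hN'
    refine ⟨g' * g⁻¹, ?_, ?_⟩
    · rw [mul_smul, ← ha, inv_smul_smul, ha']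
    · rw [mul_smul, ← hc, inv_smul_smul, hc']
  · intro g hg
    exact FaithfulSMul.eq_of_smul_eq_smul (α := X) (fun x => by rw [hg x, one_smul])
  · intro a
    obtain ⟨g, hg⟩ := htr A a
    exact ⟨g • B, g, hg, rfl⟩
  · intro a
    obtain ⟨g, hg⟩ := htr A a
    have hN : N a (g • C) := ⟨g, hg, rfl⟩
    refine ⟨g • C, (hNirr _ _ hN).symm, fun hD => hDN _ _ hD hN⟩
  · rintro a b b' g ⟨g0, h0a, h0b⟩ ⟨g1, h1a, h1b⟩ hbb hga hgb hgb'
    have h1 : g0⁻¹ * g * g0 = 1 := by
      refine hfrob (g0⁻¹ * g * g0) ?_ (g0⁻¹ * g1) ?_ ?_ ?_ ?_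
      · rw [mem_stabilizer_iff, mul_smul, h0a, mul_smul, hga, ← h0a, inv_smul_smul]
      · rw [mem_stabilizer_iff, mul_smul, h1a, ← h0a, inv_smul_smul]
      · rw [mul_smul, h0b, mul_smul, hgb, ← h0b, inv_smul_smul]
      · rw [mul_smul g0⁻¹ g1 B, h1b, mul_smul, smul_inv_smul, mul_smul, hgb']
      · rw [mul_smul, h1b]
        intro h
        rw [inv_smul_eq_iff, h0b] at h
        exact hbb h.symm
    have h2 : g = g0 * (g0⁻¹ * g * g0) * g0⁻¹ := by group
    rw [h2, h1]; group
  · rintro a b ⟨g0, h0a, h0b⟩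
    obtain ⟨g, hg, hg1, hgB⟩ := hfix
    rw [mem_stabilizer_iff] at hg
    refine ⟨g0 * g * g0⁻¹, ?_, ?_, ?_⟩
    · rw [mul_smul, ← h0a, inv_smul_smul, mul_smul, hg]
    · rw [mul_smul, ← h0b, inv_smul_smul, mul_smul, hgB]
    · intro h
      apply hg1
      have h2 : g = g0⁻¹ * (g0 * g * g0⁻¹) * g0 := by group
      rw [h2, h]; group

end Cfsg.Agent.Lib.FR
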