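import Mathlib
import Cfsg.Agent.Lib.FRa

/-! S2207, piece SET3 (helper57). -/

set_option autoImplicit false
set_option linter.all false

namespace Cfsg.Agent.Lib.FR

open MulAction Subgroup

variable {G X : Type*} [Group G] [Finite G] [Finite X] [MulAction G X] {D : X → X → Prop} {K : X → Subgroup G}
  {k h l lam mu : ℕ}

theorem set3 [Nonempty X] (R : R0 G X D) (k : ℕ) (hk : ∀ a, Nat.card {b // D a b} = k) : ∃ l lam mu : ℕ, 1 ≤ l ∧
    (∀ a, Nat.card {c // c ≠ a ∧ ¬ D a c} = l) ∧ Nat.card X = 1 + k + l ∧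
    (∀ a b, D a b → Nat.card {c // D a c ∧ D b c} = lam) ∧
    (∀ a c, a ≠ c → ¬ D a c → Nat.card {b // D a b ∧ D c b} = mu) ∧ k * k = k + k * lam + l * mu := by
  classical
  haveI := Fintype.ofFinite X
  obtain ⟨a₀⟩ := ‹Nonempty X›
  obtain ⟨b₀, hb₀⟩ := R.exD a₀
  obtain ⟨c₀, hc₀, hc₀'⟩ := R.exN a₀
  have iff1 : ∀ (g : G) (a b : X), D (g • a) (g • b) ↔ D a b := by
    intro g a b
    constructor
    · intro h
      have := R.inv g⁻¹ _ _ h
      rwa [inv_smul_smul, inv_smul_smul] at this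
    · exact R.inv g a b
  have cc : ∀ (P : X → Prop) [DecidablePred P], Nat.card {c // P c} = (Finset.univ.filter P).card := by
    intro P _
    rw [Nat.card_eq_fintype_card, Fintype.card_subtype]
  have hl : ∀ a, Nat.card {c // c ≠ a ∧ ¬ D a c} = Nat.card {c // c ≠ a₀ ∧ ¬ D a₀ c} := by
    intro a
    obtain ⟨g, hg⟩ := R.trX a₀ a
    subst hg
    symm
    refine Nat.card_congr ((MulAction.toPerm g).subtypeEquiv ?_)
    intro c
    show c ≠ a₀ ∧ ¬ D a₀ c ↔ g • c ≠ g • a₀ ∧ ¬ D (g • a₀) (g • c)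
    rw [iff1, (MulAction.injective g).ne_iff]
  have hlam : ∀ a b, D a b → Nat.card {c // D a c ∧ D b c} = Nat.card {c // D a₀ c ∧ D b₀ c} := by
    intro a b hab
    obtain ⟨g, hg, hg'⟩ := R.trD a₀ b₀ a b hb₀ hab
    subst hg hg'
    symm
    refine Nat.card_congr ((MulAction.toPerm g).subtypeEquiv ?_)
    intro c
    show D a₀ c ∧ D b₀ c ↔ D (g • a₀) (g • c) ∧ D (g • b₀) (g • c)
    rw [iff1, iff1]
  have hmu : ∀ a c, a ≠ c → ¬ D a c → Nat.card {b // D a b ∧ D c b} = Nat.card {b // D a₀ b ∧ D c₀ b} := by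
    intro a c hac hn
    obtain ⟨g, hg, hg'⟩ := R.trN a₀ c₀ a c (Ne.symm hc₀) hc₀' hac hn
    subst hg hg'
    symm
    refine Nat.card_congr ((MulAction.toPerm g).subtypeEquiv ?_)
    intro d
    show D a₀ d ∧ D c₀ d ↔ D (g • a₀) (g • d) ∧ D (g • c₀) (g • d)
    rw [iff1, iff1]
  refine ⟨_, _, _, ?_, hl, ?_, hlam, hmu, ?_⟩
  · haveI : Nonempty {c // c ≠ a₀ ∧ ¬ D a₀ c} := ⟨⟨c₀, hc₀, hc₀'⟩⟩
    exact Nat.card_pos
  · rw [← hk a₀, cc, cc, Nat.card_eq_fintype_card, ← Finset.card_univ,
      ← Finset.card_filter_add_card_filter_not (s := Finset.univ) (fun b => D a₀ b)]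
    have e1 : Finset.univ.filter (fun c => ¬ D a₀ c) = insert a₀ (Finset.univ.filter fun c => c ≠ a₀ ∧ ¬ D a₀ c) := by
      ext c
      simp only [Finset.mem_filter, Finset.mem_univ, true_and, Finset.mem_insert]
      constructor
      · intro h
        by_cases h1 : c = a₀
        · exact Or.inl h1
        · exact Or.inr ⟨h1, h⟩
      · rintro (h | h)
        · rw [h]; exact R.irr a₀
        · exact h.2
    rw [e1, Finset.card_insert_of_notMem (by simp)]
    ring
  · have s1 : ∑ b : X, ∑ c : X, (if D a₀ b ∧ D b c then 1 else 0) = k * k := by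
      have : ∀ b : X, ∑ c : X, (if D a₀ b ∧ D b c then 1 else 0) = if D a₀ b then k else 0 := by
        intro b
        by_cases hb : D a₀ b
        · simp only [hb, true_and, if_true]
          rw [Finset.sum_boole, ← cc, hk]; simp
        · simp [hb]
      rw [Finset.sum_congr rfl (fun b _ => this b), Finset.sum_ite, Finset.sum_const_zero, add_zero, Finset.sum_const,
        ← cc, hk, smul_eq_mul]
    rw [← s1, Finset.sum_comm]
    have s2 : ∀ c : X, ∑ b : X, (if D a₀ b ∧ D b c then 1 else 0) =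
        (if c = a₀ then k else 0) + (if D a₀ c then Nat.card {c // D a₀ c ∧ D b₀ c} else 0) +
          (if c ≠ a₀ ∧ ¬ D a₀ c then Nat.card {b // D a₀ b ∧ D c₀ b} else 0) := by
      intro c
      rw [Finset.sum_boole, ← cc, Nat.cast_id]
      have e0 : Nat.card {b // D a₀ b ∧ D b c} = Nat.card {b // D a₀ b ∧ D c b} := by
        apply Nat.card_congr
        refine Equiv.subtypeEquivRight ?_
        intro b
        exact ⟨fun h => ⟨h.1, R.symm _ _ h.2⟩, fun h => ⟨h.1, R.symm _ _ h.2⟩⟩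
      rw [e0]
      by_cases h1 : c = a₀
      · subst h1
        have e2 : Nat.card {b // D c b ∧ D c b} = k := by
          rw [← hk c]
          apply Nat.card_congr
          exact Equiv.subtypeEquivRight (fun b => and_self_iff)
        rw [e2, if_pos rfl, if_neg (R.irr c), if_neg (fun h => h.1 rfl), add_zero, add_zero]
      · by_cases h2 : D a₀ c
        · rw [hlam a₀ c h2]; simp [h1, h2]
        · rw [hmu a₀ c (Ne.symm h1) h2]; simp [h1, h2]
    rw [Finset.sum_congr rfl (fun c _ => s2 c), Finset.sum_add_distrib, Finset.sum_add_distrib]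
    congr 1
    · congr 1
      · simp
      · rw [Finset.sum_ite, Finset.sum_const_zero, add_zero, Finset.sum_const, ← cc, hk, smul_eq_mul]
    · rw [Finset.sum_ite, Finset.sum_const_zero, add_zero, Finset.sum_const, ← cc, smul_eq_mul]

end Cfsg.Agent.Lib.FR
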