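import Cfsg.Agent.Lib.FRa

/-! S2207, pieces SET3, SET4 (helper66) -/

set_option autoImplicit false

namespace Cfsg.Agent.Lib.FR

open MulAction Subgroup
open scoped Pointwise

namespace H66

theorem eqv_triv {G X : Type*} [Group G] [MulAction G X] (hp : MulAction.IsPreprimitive G X) (E : X → X → Prop)
    (hE : Equivalence E) (hinv : ∀ (g : G) (x y : X), E x y → E (g • x) (g • y)) :
    (∀ x y, E x y → x = y) ∨ (∀ x y, E x y) := by
  have hblk : ∀ a : X, IsTrivialBlock {y | E a y} := by
    intro a
    apply hp.isTrivialBlock_of_isBlock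
    rw [isBlock_iff_smul_eq_or_disjoint]
    intro g
    have hmem : ∀ x, x ∈ g • {y | E a y} ↔ E (g • a) x := by
      intro x
      rw [Set.mem_smul_set_iff_inv_smul_mem, Set.mem_setOf_eq]
      constructor
      · intro h
        have := hinv g _ _ h
        rwa [smul_inv_smul] at this
      · intro h
        have := hinv g⁻¹ _ _ h
        rwa [inv_smul_smul] at this
    by_cases h : E a (g • a)
    · left
      ext x
      rw [hmem, Set.mem_setOf_eq]
      exact ⟨fun h1 => hE.trans h h1, fun h1 => hE.trans (hE.symm h) h1⟩
    · right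
      rw [Set.disjoint_left]
      intro x hx hx'
      rw [hmem] at hx
      exact h (hE.trans hx' (hE.symm hx))
  by_cases h : ∀ x y, E x y → x = y
  · exact Or.inl h
  · right
    push Not at h
    obtain ⟨a, b, hab, hne⟩ := h
    have h1 : ∀ y, E a y := by
      rcases hblk a with h2 | h2
      · exact absurd (h2 (hE.refl a) hab) hne
      · intro y
        have : y ∈ {y | E a y} := by rw [h2]; trivial
        exact this
    intro x y
    exact hE.trans (hE.symm (h1 x)) (h1 y)

end H66

variable {G X : Type*} [Group G] [Finite G] [Finite X] [MulAction G X] {D : X → X → Prop}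

theorem set4 (R : R0 G X D) : (∀ a c, a ≠ c → ¬ D a c → ∃ b, D a b ∧ D c b) ∧ (∀ a c, (∀ b, D a b → D c b) → a = c) ∧
    (∀ (a c : X) (P : Subgroup G), a ≠ c → (∀ g : G, (g • a = a ∨ g • c = c) → ∀ x ∈ P, g * x * g⁻¹ ∈ P) →
      (∀ x ∈ P, x • a = a) → P = ⊥) := by
  have hinv' : ∀ (g : G) (a b : X), D (g • a) (g • b) → D a b := by
    intro g a b h
    have := R.inv g⁻¹ _ _ h
    rwa [inv_smul_smul, inv_smul_smul] at this
  have hneD : ∀ a b, D a b → a ≠ b := by
    rintro a b h rfl
    exact R.irr a h
  refine ⟨?_, ?_, ?_⟩
  · intro a c hac hN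
    by_contra hcon
    push Not at hcon
    have hno : ∀ x z, x ≠ z → ¬ D x z → ∀ y, D x y → ¬ D z y := by
      intro x z hxz hNxz y hxy hzy
      obtain ⟨g, hg1, hg2⟩ := R.trN x z a c hxz hNxz hac hN
      have h1 := R.inv g _ _ hxy
      have h2 := R.inv g _ _ hzy
      rw [hg1] at h1
      rw [hg2] at h2
      exact hcon _ h1 h2
    have hE : Equivalence (fun x y : X => x = y ∨ D x y) := by
      refine ⟨fun x => Or.inl rfl, ?_, ?_⟩
      · rintro x y (h | h)
        · exact Or.inl h.symm
        · exact Or.inr (R.symm _ _ h)
      · rintro x y z (rfl | h) (rfl | h')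
        · exact Or.inl rfl
        · exact Or.inr h'
        · exact Or.inr h
        · by_cases hxz : x = z
          · exact Or.inl hxz
          · right
            by_contra hNxz
            exact hno x z hxz hNxz y h (R.symm _ _ h')
    rcases H66.eqv_triv R.prim _ hE (fun g x y h => h.imp (fun h => by rw [h]) (fun h => R.inv g _ _ h)) with h | h
    · obtain ⟨b, hb⟩ := R.exD a
      exact hneD a b hb (h a b (Or.inr hb))
    · rcases h a c with h1 | h1
      · exact hac h1
      · exact hN h1
  · intro a c h
    have hcard : Nat.card {b // D a b} = Nat.card {b // D c b} := by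
      obtain ⟨g, hg⟩ := R.trX a c
      refine Nat.card_congr (Equiv.subtypeEquiv (MulAction.toPerm g) fun b => ?_)
      show D a b ↔ D c (g • b)
      rw [← hg]
      exact ⟨R.inv g a b, hinv' g a b⟩
    have hset : {b | D a b} = {b | D c b} := by
      apply Set.eq_of_subset_of_ncard_le (fun b hb => h b hb)
      exact hcard.ge
    have hE : Equivalence (fun x y : X => ∀ b, D x b ↔ D y b) :=
      ⟨fun x b => Iff.rfl, fun h b => (h b).symm, fun h h' b => (h b).trans (h' b)⟩
    have hEi : ∀ (g : G) (x y : X), (∀ b, D x b ↔ D y b) → (∀ b, D (g • x) b ↔ D (g • y) b) := by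
      intro g x y h b
      have h1 := h (g⁻¹ • b)
      constructor
      · intro h2
        have h3 := R.inv g⁻¹ _ _ h2
        rw [inv_smul_smul] at h3
        have h4 := R.inv g _ _ (h1.1 h3)
        rwa [smul_inv_smul] at h4
      · intro h2
        have h3 := R.inv g⁻¹ _ _ h2
        rw [inv_smul_smul] at h3
        have h4 := R.inv g _ _ (h1.2 h3)
        rwa [smul_inv_smul] at h4
    rcases H66.eqv_triv R.prim _ hE hEi with h1 | h1
    · exact h1 a c (fun b => by
        constructor
        · intro hb; exact h b hb
        · intro hb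
          have : b ∈ {b | D a b} := by rw [hset]; exact hb
          exact this)
    · exfalso
      obtain ⟨b, hb⟩ := R.exD a
      exact R.irr b ((h1 a b b).1 hb)
  · intro a c P hac hP hPa
    -- `G_a` is maximal
    have hnt : Nontrivial X := ⟨a, c, hac⟩
    have : MulAction.IsPreprimitive G X := R.prim
    have hco : IsCoatom (stabilizer G a) := MulAction.IsPreprimitive.isCoatom_stabilizer_of_isPreprimitive G a
    have hNa : stabilizer G a ≤ normalizer (P : Set G) := by
      intro g hg
      rw [mem_normalizer_iff]
      intro x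
      constructor
      · exact hP g (Or.inl hg) x
      · intro hx
        have := hP g⁻¹ (Or.inl (by rw [inv_smul_eq_iff]; exact (mem_stabilizer_iff.1 hg).symm)) _ hx
        have e : g⁻¹ * (g * x * g⁻¹) * g⁻¹⁻¹ = x := by group
        rwa [e] at this
    have hNc : stabilizer G c ≤ normalizer (P : Set G) := by
      intro g hg
      rw [mem_normalizer_iff]
      intro x
      constructor
      · exact hP g (Or.inr hg) x
      · intro hx
        have := hP g⁻¹ (Or.inr (by rw [inv_smul_eq_iff]; exact (mem_stabilizer_iff.1 hg).symm)) _ hx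
        have e : g⁻¹ * (g * x * g⁻¹) * g⁻¹⁻¹ = x := by group
        rwa [e] at this
    have htop : normalizer (P : Set G) = ⊤ := by
      by_contra hne
      have h1 : normalizer (P : Set G) = stabilizer G a := by
        by_contra h2
        exact hne (hco.2 _ (lt_of_le_of_ne hNa (Ne.symm h2)))
      have h2 : stabilizer G c ≤ stabilizer G a := h1 ▸ hNc
      have h3 : stabilizer G c = stabilizer G a := by
        apply eq_of_le_of_card_ge h2
        obtain ⟨g, hg⟩ := R.trX c a
        rw [← hg]
        rw [MulAction.stabilizer_smul_eq_stabilizer_map_conj]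
        rw [card_map_of_injective (MulEquiv.injective _)]
      have hE : Equivalence (fun x y : X => stabilizer G x = stabilizer G y) :=
        ⟨fun x => rfl, fun h => h.symm, fun h h' => h.trans h'⟩
      rcases H66.eqv_triv R.prim _ hE (fun g x y h => by
        show stabilizer G (g • x) = stabilizer G (g • y)
        rw [MulAction.stabilizer_smul_eq_stabilizer_map_conj, MulAction.stabilizer_smul_eq_stabilizer_map_conj, h]) with h4 | h4
      · exact hac (h4 c a h3).symm
      · obtain ⟨b, hb⟩ := R.exD a
        obtain ⟨g, hg1, hg2, hg3⟩ := R.Hne a b hb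
        apply hg3
        apply R.faith
        intro x
        have h5 : g ∈ stabilizer G x := by rw [h4 x a]; exact hg1
        exact h5
    have hPn : P.Normal := normalizer_eq_top_iff.1 htop
    rw [eq_bot_iff]
    intro x hx
    rw [mem_bot]
    apply R.faith
    intro y
    obtain ⟨g, rfl⟩ := R.trX a y
    have h1 := hPa _ (hPn.conj_mem x hx g⁻¹)
    rw [inv_inv] at h1
    have h2 : x • g • a = g • ((g⁻¹ * x * g) • a) := by
      rw [smul_smul, smul_smul]; congr 1; group
    rw [h2, h1]

end Cfsg.Agent.Lib.FR
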