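import Cfsg.Agent.Lib.FRa

/-!
# S2207, piece SET5 (helper99)
-/

set_option autoImplicit false
set_option linter.unusedVariables false
set_option linter.unusedSectionVars false

namespace Cfsg.Agent.Lib.FR

open MulAction Subgroup

open scoped Pointwise

variable {G X : Type*} [Group G] [Finite G] [Finite X] [MulAction G X] {D : X → X → Prop}

theorem set5 (R : R0 G X D) (K : X → Subgroup G) (k h : ℕ) (R' : R1 G X D K k h) :
    ∀ (a : X) (x : G), x ∈ K a → x ≠ 1 → ∃ c, c ≠ a ∧ ¬ D a c ∧ x • c ≠ c := by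
  intro a x hx hx1
  by_contra hcon
  push Not at hcon
  have hDinv : ∀ (g : G) (u v : X), D (g • u) (g • v) ↔ D u v := by
    intro g u v
    constructor
    · intro hD
      have := R.inv g⁻¹ _ _ hD
      rwa [inv_smul_smul, inv_smul_smul] at this
    · exact R.inv g u v
  have hcop : Nat.Coprime h k := by
    have h1 := R'.hk
    have h2 := R'.k2
    have h3 : Nat.gcd h k ∣ 1 := by
      have e1 : Nat.gcd h k ∣ k - 1 := (Nat.gcd_dvd_left h k).trans h1
      have e2 : Nat.gcd h k ∣ k := Nat.gcd_dvd_right h k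
      have e3 := Nat.dvd_sub e2 e1
      have e4 : k - (k - 1) = 1 := by omega
      rwa [e4] at e3
    exact Nat.dvd_one.1 h3
  have hok : orderOf x ∣ k := by
    rw [← R'.Kcard a]
    have : orderOf (⟨x, hx⟩ : K a) ∣ Nat.card (K a) := orderOf_dvd_natCard _
    rwa [Subgroup.orderOf_mk] at this
  -- x moves every neighbour of a point of Γ(a)
  have hmove : ∀ c, c ≠ a → ¬ D a c → ∀ b, D c b → x • b ≠ b := by
    intro c hca hac b hcb hxb
    have hxc := hcon c hca hac
    have hm : x ∈ stabilizer G c ⊓ stabilizer G b := ⟨hxc, hxb⟩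
    have hoh : orderOf x ∣ h := by
      rw [← R'.Hcard c b hcb]
      have : orderOf (⟨x, hm⟩ : (stabilizer G c ⊓ stabilizer G b : Subgroup G)) ∣
        Nat.card (stabilizer G c ⊓ stabilizer G b : Subgroup G) := orderOf_dvd_natCard _
      rwa [Subgroup.orderOf_mk] at this
    apply hx1
    rw [← orderOf_eq_one_iff]
    exact Nat.dvd_one.1 (hcop ▸ Nat.dvd_gcd hoh hok)
  have hsub : ∀ c, ¬ D a c → ∀ b, D c b → D a b := by
    intro c hac b hcb
    by_contra hab
    by_cases hca : c = a
    · exact hab (hca ▸ hcb)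
    · by_cases hba : b = a
      · exact hac (R.symm _ _ (hba ▸ hcb))
      · exact hmove c hca hac b hcb (hcon b hba hab)
  have hE : ∀ u v w, ¬ D u v → ¬ D v w → ¬ D u w := by
    intro u v w huv hvw huw
    obtain ⟨g, hg⟩ := R.trX v a
    have h1 : ¬ D a (g • u) := by
      intro hD
      apply huv
      rw [← hg, hDinv] at hD
      exact R.symm _ _ hD
    have h2 : ¬ D a (g • w) := by
      intro hD
      apply hvw
      rwa [← hg, hDinv] at hD
    exact h2 (hsub _ h1 _ ((hDinv g u w).2 huw))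
  have hsymm : ∀ u v, ¬ D u v → ¬ D v u := fun u v h h' => h (R.symm _ _ h')
  have hB : IsBlock G {y | ¬ D a y} := by
    rw [isBlock_iff_smul_eq_of_nonempty]
    rintro g ⟨y, ⟨z, hz, rfl⟩, hy⟩
    have h1 : ¬ D (g • a) (g • z) := fun hD => hz ((hDinv g a z).1 hD)
    have h2 : ¬ D a (g • a) := hE _ _ _ hy (hsymm _ _ h1)
    ext u
    constructor
    · rintro ⟨w, hw, rfl⟩
      have h3 : ¬ D (g • a) (g • w) := fun hD => hw ((hDinv g a w).1 hD)
      exact hE _ _ _ h2 h3
    · intro hu
      refine ⟨g⁻¹ • u, ?_, smul_inv_smul g u⟩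
      have h3 : ¬ D (g • a) u := hE _ _ _ (hsymm _ _ h2) hu
      intro hD
      apply h3
      have := (hDinv g _ _).2 hD
      rwa [smul_inv_smul] at this
  have hprim := R.prim
  rcases hprim.isTrivialBlock_of_isBlock hB with hs | hs
  · obtain ⟨c, hca, hac⟩ := R.exN a
    exact hca (hs hac (R.irr a))
  · obtain ⟨b, hab⟩ := R.exD a
    have : b ∈ {y | ¬ D a y} := by rw [hs]; trivial
    exact this hab

end Cfsg.Agent.Lib.FR
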