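import Cfsg.Agent.Lib.FRa

/-! S2207, piece TIF: arithmetic end of the TI case (helper8). -/

set_option autoImplicit false
set_option maxHeartbeats 2000000

namespace Cfsg.Agent.Lib.FR

def tifE (p d : ℕ) : ℕ := (p + 2) * p / d
def tifS (p d : ℕ) : ℕ := d + tifE p d - (2 * p + 2)

/-- natural part of the finite check -/
def tifN (p d A : ℕ) : Bool :=
  (Nat.ble 2 p && Nat.beq (p % 2) 0 && Nat.ble 1 d) && (Nat.beq (d * tifE p d) ((p + 2) * p) && Nat.ble d (tifE p d) &&
    Nat.ble (2 * p + 3) (d + tifE p d)) && (Nat.beq (tifS p d % 2) 0 && Nat.ble p (4 * A) &&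
    Nat.ble (A * (A * tifS p d + tifS p d - 1)) ((p + 2) * tifS p d))

/-- the two remainders -/
def tifX (p d A : ℕ) : Int :=
  ((1 + ((p : ℤ) + 2) * (tifS p d : ℕ)) * A - (1 + ((p : ℤ) + 2) * (tifS p d : ℕ))) % (((tifE p d : ℕ) : ℤ) - d)
def tifY (p d A : ℕ) : Int :=
  (((p : ℤ) + 2) * ((tifS p d : ℕ) * A) - (1 + ((p : ℤ) + 2) * (tifS p d : ℕ)) + (((tifE p d : ℕ) : ℤ) - p - 1) * ((p : ℤ) + 2 + 1)) %
    (((tifE p d : ℕ) : ℤ) - d)

def tifB (p d A : ℕ) : Bool := !(tifN p d A && (decide (tifX p d A = 0) && decide (tifY p d A = 0)))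

theorem tif_fin' : ∀ p : Fin 17, ∀ d : Fin 17, ∀ A : Fin 6, tifB p d A = true := by
  decide +kernel

theorem tif_fin (p : ℕ) (hp : p < 17) (d : ℕ) (hd : d < 17) (A : ℕ) (hA : A < 6) (h1 : tifN p d A = true) (h2 : tifX p d A = 0)
    (h3 : tifY p d A = 0) : False := by
  have h := tif_fin' ⟨p, hp⟩ ⟨d, hd⟩ ⟨A, hA⟩
  have h' : tifB p d A = true := h
  unfold tifB at h'
  rw [h1, h2, h3] at h'
  revert h'
  decide

/-- odd `s` -/
theorem tif_odd {r s w m' l' nD nN : ℕ} (hs : 1 ≤ s) (hw1 : 1 ≤ w) (hm1 : 1 ≤ m') (hmw : m' + l' = w) (hr : 2 ≤ r)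
    (hnD : nD ≤ r * s) (hnN : nN ≤ s) (hso : ¬ Even s)
    (hcnt : 1 + (1 + r * s * w) + r * (1 + r * s * w) = 2 * (1 + nD + r * nN))
    (e1 : ∀ th ta : ℤ, th - ta = ((r * s * l' : ℕ) : ℤ) - (s * m' : ℕ) → th * ta = ((1 + r * s * w : ℕ) : ℤ) - (s * m' : ℕ) → 0 < th + ta →
      (th + ta) ∣ - ((1 + r * s * w : ℕ) : ℤ) + ta * (((1 + r * s * w : ℕ) : ℤ) + (r * (1 + r * s * w) : ℕ))) :
    r = 2 ∧ s = 1 ∧ w = 1 := by
  have h1 : r * nN ≤ r * s := Nat.mul_le_mul_left _ hnN
  have hH : 1 ≤ r * s := Nat.mul_pos (by omega) hs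
  have h2 : 2 * (1 + r * s * w) ≤ r * (1 + r * s * w) := Nat.mul_le_mul_right _ hr
  have hw : w = 1 := by
    by_contra hne
    have h3 : r * s * 2 ≤ r * s * w := Nat.mul_le_mul_left _ (by omega)
    omega
  subst hw
  rw [mul_one] at *
  have hr2 : r = 2 := by
    by_contra hne
    have h3 : 3 * (1 + r * s) ≤ r * (1 + r * s) := Nat.mul_le_mul_right _ (by omega)
    omega
  subst hr2
  have hm : m' = 1 := by omega
  have hl : l' = 0 := by omega
  subst hm hl
  have h3 := e1 1 (s + 1) (by push_cast; ring) (by push_cast; ring) (by positivity)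
  have h4 : ((s : ℤ) + 2) ∣ 12 := by
    have h5 : ((s : ℤ) + 2) ∣ - ((1 + 2 * s : ℕ) : ℤ) + ((s : ℤ) + 1) * (((1 + 2 * s : ℕ) : ℤ) + (2 * (1 + 2 * s) : ℕ)) := by
      have e : (1 : ℤ) + ((s : ℤ) + 1) = (s : ℤ) + 2 := by ring
      rw [e] at h3
      exact h3
    have e : (12 : ℤ) = (- ((1 + 2 * s : ℕ) : ℤ) + ((s : ℤ) + 1) * (((1 + 2 * s : ℕ) : ℤ) + (2 * (1 + 2 * s) : ℕ))) -
        ((s : ℤ) + 2) * (6 * s - 5) := by push_cast; ring
    rw [e]
    exact dvd_sub h5 (dvd_mul_right _ _)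
  have h5 := Int.le_of_dvd (by norm_num) h4
  have h6 : s ≤ 10 := by omega
  refine ⟨rfl, ?_, rfl⟩
  have hso' : s % 2 = 1 := by
    rcases Nat.even_or_odd s with h | h
    · exact absurd h hso
    · exact Nat.odd_iff.1 h
  interval_cases s <;> first | rfl | omega

/-- `w = 2`, `mu = s`, `lam = h` -/
theorem tif_sq {s t : ℕ} {y : ℤ} (hs : 2 ≤ s) (hse : s % 2 = 0) (hy : (s : ℤ) ≤ y) (h : (t : ℤ) ^ 2 = (y + 4) ^ 2 + 4 * s - 12) : False := by
  have ht : (0 : ℤ) ≤ t := Int.natCast_nonneg t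
  have hs' : (2 : ℤ) ≤ s := by exact_mod_cast hs
  rcases (by omega : s = 2 ∨ 4 ≤ s) with h2 | h4
  · have h2' : (s : ℤ) = 2 := by exact_mod_cast h2
    rw [h2'] at h hy
    have h1 : (t : ℤ) < y + 4 := by
      by_contra hcon
      push Not at hcon
      have h5 : (y + 4) ^ 2 ≤ (t : ℤ) ^ 2 := pow_le_pow_left₀ (by linarith) hcon 2
      linarith
    have h3 : (t : ℤ) ≤ y + 3 := by omega
    have h5 : (t : ℤ) ^ 2 ≤ (y + 3) ^ 2 := pow_le_pow_left₀ ht h3 2
    nlinarith
  · have h4' : (4 : ℤ) ≤ s := by exact_mod_cast h4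
    have h1 : y + 4 < (t : ℤ) := by
      by_contra hcon
      push Not at hcon
      have h5 : (t : ℤ) ^ 2 ≤ (y + 4) ^ 2 := pow_le_pow_left₀ ht hcon 2
      linarith
    rcases (by omega : (t : ℤ) = y + 5 ∨ y + 6 ≤ (t : ℤ)) with h5 | h5
    · rw [h5] at h
      have h6 : 2 * y + 9 = 4 * (s : ℤ) - 12 := by linarith
      omega
    · have h6 : (y + 6) ^ 2 ≤ (t : ℤ) ^ 2 := pow_le_pow_left₀ (by linarith) h5 2
      nlinarith

theorem tif_big {p s t A : ℕ} (hp : 2 ≤ p) (hp2 : p % 2 = 0) (hp16 : p < 17) (hs2 : 2 ≤ s) (hse : s % 2 = 0)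
    (ht : (t : ℤ) ^ 2 = (s : ℤ) ^ 2 + 4 * (1 + (p + 1) * s)) (hA : A < 6) (h4A : p ≤ 4 * A) (hAA : A * (A * s + s - 1) ≤ (p + 2) * s)
    (f1 : ∀ th ta : ℤ, th - ta = -(s : ℤ) → th * ta = 1 + ((p : ℤ) + 1) * s → 0 < th + ta →
      (th + ta) ∣ (1 + ((p : ℤ) + 2) * s) * A - (1 + ((p : ℤ) + 2) * s))
    (f2 : ∀ th ta : ℤ, th - ta = -(s : ℤ) → th * ta = 1 + ((p : ℤ) + 1) * s → 0 < th + ta →
      (th + ta) ∣ ((p : ℤ) + 2) * ((s : ℤ) * A) - (1 + ((p : ℤ) + 2) * s) + ta * ((p : ℤ) + 2 + 1)) : False := by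
  have ht0 : (0 : ℤ) ≤ t := Int.natCast_nonneg t
  have hs' : (2 : ℤ) ≤ s := by exact_mod_cast hs2
  have hp' : (2 : ℤ) ≤ p := by exact_mod_cast hp
  have hprod : ((s : ℤ) + 2 * p + 2 - t) * ((s : ℤ) + 2 * p + 2 + t) = 4 * ((p + 2) * p) := by
    linear_combination -ht
  have hev : Even ((s : ℤ) + 2 * p + 2 - t) := by
    have h2 : Even (((s : ℤ) + 2 * p + 2 - t) * ((s : ℤ) + 2 * p + 2 + t)) := by
      rw [hprod]; exact ⟨2 * ((p + 2) * p), by ring⟩
    rcases Int.even_mul.1 h2 with h3 | h3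
    · exact h3
    · have h4 : (s : ℤ) + 2 * p + 2 - t = (s : ℤ) + 2 * p + 2 + t - 2 * t := by ring
      rw [h4]
      exact h3.sub ⟨t, by ring⟩
  obtain ⟨d, hd⟩ := hev
  have hde : d * (d + t) = (p + 2) * p := by
    have h2 : (s : ℤ) + 2 * p + 2 + t = 2 * (d + t) := by linarith
    rw [h2, hd] at hprod
    linarith
  have hpp : 0 < ((p : ℤ) + 2) * p := by positivity
  have hd0 : 0 < d := by
    by_contra hcon
    push Not at hcon
    have h2 : (0 : ℤ) ≤ d + t := by linarith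
    have h3 : d * (d + t) ≤ 0 := mul_nonpos_of_nonpos_of_nonneg hcon h2
    linarith
  have htpos : (0 : ℤ) < t := by
    rcases ht0.lt_or_eq with h2 | h2
    · exact h2
    · exfalso
      rw [← h2] at ht
      have h3 : 0 < (s : ℤ) ^ 2 + 4 * (1 + (p + 1) * s) := by positivity
      rw [← ht] at h3
      norm_num at h3
  have hdp : d ≤ p := by
    by_contra hcon
    push Not at hcon
    have h2 : (p : ℤ) + 1 ≤ d := hcon
    have h3 : ((p : ℤ) + 1) * (p + 1) ≤ d * (d + t) := mul_le_mul h2 (by linarith) (by linarith) hd0.le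
    linarith
  lift d to ℕ using hd0.le
  have hdN : d * (d + t) = (p + 2) * p := by exact_mod_cast hde
  have hd1 : 1 ≤ d := by exact_mod_cast hd0
  have hE : tifE p d = d + t := by
    unfold tifE
    rw [← hdN]
    exact Nat.mul_div_cancel_left _ hd1
  have hsZ : (s : ℤ) + 2 * p + 2 = 2 * d + t := by linarith
  have hsN : s + 2 * p + 2 = 2 * d + t := by exact_mod_cast hsZ
  have hS : tifS p d = s := by
    unfold tifS
    rw [hE]; omega
  have hdN' : d ≤ p := by exact_mod_cast hdp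
  have hth : ((p : ℤ) + 1 - d) + ((p : ℤ) + 1 - d + s) = t := by linarith
  have hmulE : ((p : ℤ) + 1 - d) * ((p : ℤ) + 1 - d + s) = 1 + ((p : ℤ) + 1) * s := by
    have h2 : (t : ℤ) = s + 2 * p + 2 - 2 * d := by linarith
    rw [h2] at hde
    linear_combination -hde
  have hE1 := f1 ((p : ℤ) + 1 - d) ((p : ℤ) + 1 - d + s) (by ring) hmulE (by rw [hth]; exact htpos)
  have hE2 := f2 ((p : ℤ) + 1 - d) ((p : ℤ) + 1 - d + s) (by ring) hmulE (by rw [hth]; exact htpos)
  rw [hth] at hE1 hE2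
  have ed : (((d + t : ℕ) : ℤ) - d) = t := by push_cast; ring
  have et : ((d + t : ℕ) : ℤ) - p - 1 = (p : ℤ) + 1 - d + s := by push_cast; linarith
  refine tif_fin p hp16 d (by omega) A hA ?_ ?_ ?_
  · unfold tifN
    rw [hE, hS]
    simp only [Bool.and_eq_true, Nat.ble_eq, Nat.beq_eq]
    refine ⟨⟨⟨⟨hp, hp2⟩, hd1⟩, ⟨⟨hdN, by omega⟩, by omega⟩⟩, ⟨⟨hse, h4A⟩, hAA⟩⟩
  · unfold tifX
    rw [hE, hS, ed]
    exact Int.emod_eq_zero_of_dvd hE1
  · unfold tifY
    rw [hE, hS, ed, et]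
    exact Int.emod_eq_zero_of_dvd hE2

theorem tif {k h l lam mu r s : ℕ} (hh : 2 ≤ h) (hk : h ∣ k - 1) (hk3 : 3 ≤ k) (hlr : l = r * k) (hrs : h = r * s) (hr : 2 ≤ r) (hre : Even r)
    (he : r * mu + 1 + lam = k) (hsm : s ∣ mu) (hhl : h ∣ lam) (hmu : 1 ≤ mu)
    (hsq : ∃ t : ℕ, (t : ℤ) ^ 2 = ((lam : ℤ) - mu) ^ 2 + 4 * ((k : ℤ) - mu))
    (nD nN : ℕ) (hnD : nD ≤ h) (hnN : nN ≤ s) (hcnt : 1 + k + l = (if Even s then r + 2 else 2) * (1 + nD + r * nN))
    (hq : Even s → 4 * nN ≤ 3 * s ∨ nN = s)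
    /- EIG for g = 1 -/
    (e1 : ∀ th ta : ℤ, th - ta = (lam : ℤ) - mu → th * ta = (k : ℤ) - mu → 0 < th + ta →
      (th + ta) ∣ - (k : ℤ) + ta * ((k : ℤ) + l))
    (horb : Even s → lam = 0 → ∃ u : ℕ, u * (u - 1) ≤ mu * (k - 1 - u) ∧ u ≤ k - 1 ∧ (r + 2) * nD = r * u ∧
      (∀ th ta : ℤ, th - ta = (lam : ℤ) - mu → th * ta = (k : ℤ) - mu → 0 < th + ta →
        (th + ta) ∣ (r : ℤ) * u - k + ta * (r + 1)) ∧
      (h = k - 1 → ∃ a' : ℕ, r * u = (k - 1) * a' ∧
        ∀ th ta : ℤ, th - ta = (lam : ℤ) - mu → th * ta = (k : ℤ) - mu → 0 < th + ta → (th + ta) ∣ (k : ℤ) * a' - k)) :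
    (k = 3 ∧ h = 2 ∧ l = 6) ∨ (k = 5 ∧ h = 4 ∧ l = 10) := by
  obtain ⟨w, hw⟩ := hk
  obtain ⟨m', hm⟩ := hsm
  obtain ⟨l', hl'⟩ := hhl
  have hs : 1 ≤ s := by
    rcases Nat.eq_zero_or_pos s with h0 | h0
    · rw [h0, mul_zero] at hrs; omega
    · exact h0
  have hkk : k = 1 + h * w := by omega
  have hw1 : 1 ≤ w := by
    rcases Nat.eq_zero_or_pos w with h0 | h0
    · rw [h0, mul_zero] at hkk; omega
    · exact h0
  have hm1 : 1 ≤ m' := by
    rcases Nat.eq_zero_or_pos m' with h0 | h0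
    · rw [h0, mul_zero] at hm; omega
    · exact h0
  clear hw
  subst hrs hm hl' hlr hkk
  have hmw : m' + l' = w := by
    have h1 : (r * s) * (m' + l') = (r * s) * w := by linarith
    exact Nat.eq_of_mul_eq_mul_left (Nat.mul_pos (by omega) hs) h1
  have hre2 : r % 2 = 0 := Nat.even_iff.1 hre
  by_cases hse : Even s
  · -- `s` even
    right
    have hse2 : s % 2 = 0 := Nat.even_iff.1 hse
    have hs2 : 2 ≤ s := by omega
    rw [if_pos hse] at hcnt
    have hH : 1 ≤ r * s := Nat.mul_pos (by omega) hs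
    have hc : (r + 1) * (r * s * w) = (r + 2) * (nD + r * nN) := by linarith
    have h1 : r * nN ≤ r * s := Nat.mul_le_mul_left _ hnN
    have hw2 : w ≤ 2 := by
      by_contra hcon
      have h2 : (r + 2) * (nD + r * nN) ≤ (r + 2) * (2 * (r * s)) := Nat.mul_le_mul_left _ (by omega)
      have h3 : (r + 1) * (r * s * 3) ≤ (r + 1) * (r * s * w) := Nat.mul_le_mul_left _ (Nat.mul_le_mul_left _ (by omega))
      have h4 : 2 * (r * s) ≤ r * (r * s) := Nat.mul_le_mul_right _ hr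
      nlinarith
    rcases (by omega : (w = 2 ∧ m' = 1 ∧ l' = 1) ∨ (w = 2 ∧ m' = 2 ∧ l' = 0) ∨ (w = 1 ∧ m' = 1 ∧ l' = 0)) with
      ⟨rfl, rfl, rfl⟩ | ⟨rfl, rfl, rfl⟩ | ⟨rfl, rfl, rfl⟩
    · -- mu = s, lam = h
      exfalso
      obtain ⟨t, ht⟩ := hsq
      have hr' : (2 : ℤ) ≤ r := by exact_mod_cast hr
      have hs' : (2 : ℤ) ≤ s := by exact_mod_cast hs2
      refine tif_sq (s := s) (t := t) (y := (r : ℤ) * s - s) hs2 hse2 (by nlinarith) ?_
      rw [ht]
      push_cast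
      ring
    · -- mu = 2 s, lam = 0
      exfalso
      obtain ⟨u, hu1, hu2, hu3, hu4, _⟩ := horb hse (by simp)
      have hA : (r + 1) * (2 * s) = u + (r + 2) * nN := by
        have h2 : r * ((r + 1) * (2 * s)) = r * (u + (r + 2) * nN) := by linarith
        exact Nat.eq_of_mul_eq_mul_left (by omega) h2
      have hu5 : r * s ≤ u := by
        have h2 : (r + 2) * nN ≤ (r + 2) * s := Nat.mul_le_mul_left _ hnN
        nlinarith
      have hk1 : 1 + r * s * 2 - 1 = r * s * 2 := Nat.add_sub_cancel_left _ _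
      rw [hk1] at hu1 hu2
      have hr2 : r = 2 := by
        by_contra hne
        have hr4 : 4 ≤ r := by omega
        obtain ⟨c, hc'⟩ := Nat.exists_eq_add_of_le hu5
        have h2 : (r * s) * (r * s - 1) ≤ u * (u - 1) := Nat.mul_le_mul hu5 (by omega)
        have h3 : s * 2 * (r * s * 2 - u) ≤ s * 2 * (r * s) := Nat.mul_le_mul_left _ (by omega)
        have h4 : (r * s) * (r * s - 1) ≤ (r * s) * (s * 2) := by
          calc _ ≤ _ := h2
            _ ≤ _ := hu1
            _ ≤ _ := h3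
            _ = _ := by ring
        have h5 : r * s - 1 ≤ s * 2 := Nat.le_of_mul_le_mul_left h4 hH
        have h6 : 4 * s ≤ r * s := Nat.mul_le_mul_right _ hr4
        omega
      subst hr2
      have h3 := e1 1 (2 * s + 1) (by push_cast; ring) (by push_cast; ring) (by positivity)
      have h4 : (2 * (s : ℤ) + 2) ∣ 12 := by
        have e : (12 : ℤ) = (- ((1 + 2 * s * 2 : ℕ) : ℤ) + (2 * (s : ℤ) + 1) * (((1 + 2 * s * 2 : ℕ) : ℤ) + (2 * (1 + 2 * s * 2) : ℕ))) -
            (2 * (s : ℤ) + 2) * (12 * s - 5) := by push_cast; ring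
        have e' : (1 : ℤ) + (2 * (s : ℤ) + 1) = 2 * (s : ℤ) + 2 := by ring
        rw [e'] at h3
        rw [e]
        exact dvd_sub h3 (dvd_mul_right _ _)
      have h5 := Int.le_of_dvd (by norm_num) h4
      have h6 : s ≤ 5 := by omega
      have hs22 : s = 2 := by
        interval_cases s <;> first | rfl | omega
      subst hs22
      have hu6 : u = 4 ∨ u = 8 := by omega
      rcases hu6 with rfl | rfl
      · have h7 := hu4 1 5 (by norm_num) (by norm_num) (by norm_num)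
        norm_num at h7
      · norm_num at hu1
    · -- mu = s, lam = 0, h = k - 1
      obtain ⟨u, hu1, hu2, hu3, hu4, hu5⟩ := horb hse (by simp)
      have hk1 : 1 + r * s * 1 - 1 = r * s := by rw [Nat.add_sub_cancel_left, mul_one]
      rw [hk1] at hu1 hu2 hu5
      obtain ⟨A, hA1, hA2⟩ := hu5 rfl
      have huA : u = s * A := by
        have h2 : r * u = r * (s * A) := by rw [hA1]; ring
        exact Nat.eq_of_mul_eq_mul_left (by omega) h2
      subst huA
      have hB : (r + 1) * s = s * A + (r + 2) * nN := by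
        have h2 : r * ((r + 1) * s) = r * (s * A + (r + 2) * nN) := by linarith
        exact Nat.eq_of_mul_eq_mul_left (by omega) h2
      have h4A : r ≤ 4 * A + 2 := by
        rcases hq hse with h2 | h2
        · have h3 : (r + 2) * (4 * nN) ≤ (r + 2) * (3 * s) := Nat.mul_le_mul_left _ h2
          have h4 : s * r ≤ s * (4 * A + 2) := by nlinarith
          exact Nat.le_of_mul_le_mul_left h4 hs
        · exfalso
          subst h2
          nlinarith
      have hAr : A ≤ r := by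
        have h2 : s * A ≤ s * r := by linarith
        exact Nat.le_of_mul_le_mul_left h2 hs
      have hAA : A * (A * s + s - 1) ≤ r * s := by
        rcases Nat.eq_zero_or_pos A with h0 | h0
        · subst h0; simp
        · have h2 : 1 ≤ s * A := Nat.mul_pos hs h0
          have h3 : s * (A * (s * A - 1)) ≤ s * (r * s - s * A) := by
            calc _ = s * A * (s * A - 1) := by ring
              _ ≤ _ := by rw [mul_one] at hu1; exact hu1
          have h4 := Nat.le_of_mul_le_mul_left h3 hs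
          have h5 : A * s + s - 1 = (s * A - 1) + s := by
            have : A * s = s * A := mul_comm _ _
            omega
          rw [h5, mul_add]
          have h6 : A * s = s * A := mul_comm _ _
          have h7 : s * A ≤ r * s := by rw [mul_comm r s]; exact Nat.mul_le_mul_left _ hAr
          omega
      have hA2r : A * A ≤ r := by
        rcases Nat.eq_zero_or_pos A with h0 | h0
        · subst h0; simp
        · have h2 : s * (A * A) ≤ s * r := by
            have h3 : A * (A * s) ≤ A * (A * s + s - 1) := Nat.mul_le_mul_left _ (by omega)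
            calc s * (A * A) = A * (A * s) := by ring
              _ ≤ _ := h3
              _ ≤ _ := hAA
              _ = _ := by ring
          exact Nat.le_of_mul_le_mul_left h2 hs
      have hA5 : A ≤ 4 := by
        by_contra hcon
        have h2 : 5 * A ≤ A * A := Nat.mul_le_mul_right _ (by omega)
        omega
      rcases (by omega : r = 2 ∨ 4 ≤ r) with hr2 | hr4
      · subst hr2
        have hA1' : A ≤ 1 := by
          by_contra hcon
          have h2 : 2 * 2 ≤ A * A := Nat.mul_le_mul (by omega) (by omega)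
          omega
        rcases (by omega : A = 0 ∨ A = 1) with rfl | rfl
        · exfalso
          have h3 := hA2 1 (s + 1) (by push_cast; ring) (by push_cast; ring) (by positivity)
          have h4 : ((s : ℤ) + 2) ∣ 3 := by
            have e : (3 : ℤ) = (((1 + 2 * s * 1 : ℕ) : ℤ) * ((0 : ℕ) : ℤ) - ((1 + 2 * s * 1 : ℕ) : ℤ)) + ((s : ℤ) + 2) * 2 := by
              push_cast; ring
            have e' : (1 : ℤ) + ((s : ℤ) + 1) = (s : ℤ) + 2 := by ring
            rw [e'] at h3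
            rw [e]
            exact dvd_add h3 (dvd_mul_right _ _)
          have h5 := Int.le_of_dvd (by norm_num) h4
          omega
        · have h3 := hu4 1 (s + 1) (by push_cast; ring) (by push_cast; ring) (by positivity)
          have h4 : ((s : ℤ) + 2) ∣ 4 := by
            have e : (4 : ℤ) = ((s : ℤ) + 2) * 3 - (((2 : ℕ) : ℤ) * ((s * 1 : ℕ) : ℤ) - ((1 + 2 * s * 1 : ℕ) : ℤ) + ((s : ℤ) + 1) * (((2 : ℕ) : ℤ) + 1)) := by
              push_cast; ring
            have e' : (1 : ℤ) + ((s : ℤ) + 1) = (s : ℤ) + 2 := by ring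
            rw [e'] at h3
            rw [e]
            exact dvd_sub (dvd_mul_right _ _) h3
          have h5 := Int.le_of_dvd (by norm_num) h4
          have h6 : s = 2 := by omega
          subst h6
          exact ⟨rfl, rfl, rfl⟩
      · exfalso
        obtain ⟨p, rfl⟩ : ∃ p, r = p + 2 := ⟨r - 2, by omega⟩
        obtain ⟨t, ht⟩ := hsq
        have hp16 : p < 17 := by
          by_contra hcon
          have h3 : A = 4 := by omega
          subst h3
          omega
        refine tif_big (p := p) (s := s) (t := t) (A := A) (by omega) (by omega) hp16 hs2 hse2 ?_ (by omega) (by omega) hAA ?_ ?_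
        · rw [ht]; push_cast; ring
        · intro th ta h2 h3 h4
          have h5 := hA2 th ta (by rw [h2]; push_cast; ring) (by rw [h3]; push_cast; ring) h4
          have e2 : (1 + ((p : ℤ) + 2) * s) * A - (1 + ((p : ℤ) + 2) * s) =
              ((1 + (p + 2) * s * 1 : ℕ) : ℤ) * A - ((1 + (p + 2) * s * 1 : ℕ) : ℤ) := by push_cast; ring
          rw [e2]
          exact h5
        · intro th ta h2 h3 h4
          have h5 := hu4 th ta (by rw [h2]; push_cast; ring) (by rw [h3]; push_cast; ring) h4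
          have e2 : ((p : ℤ) + 2) * ((s : ℤ) * A) - (1 + ((p : ℤ) + 2) * s) + ta * ((p : ℤ) + 2 + 1) =
              ((p + 2 : ℕ) : ℤ) * ((s * A : ℕ) : ℤ) - ((1 + (p + 2) * s * 1 : ℕ) : ℤ) + ta * (((p + 2 : ℕ) : ℤ) + 1) := by
            push_cast; ring
          rw [e2]
          exact h5
  · -- `s` odd
    left
    rw [if_neg hse] at hcnt
    obtain ⟨h1, h2, h3⟩ := tif_odd hs hw1 hm1 hmw hr hnD hnN hse hcnt e1
    subst h1 h2 h3
    exact ⟨rfl, rfl, rfl⟩

end Cfsg.Agent.Lib.FR
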