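import Cfsg.Agent.Lib.FR_Q34
import Cfsg.Agent.Lib.FR_HL

set_option autoImplicit false

namespace Cfsg.Agent.Lib.FR

open MulAction Subgroup

theorem TRS_even {T : Type*} [Finite T] (m : T → T) (h1 : ∀ x, m (m x) = x) (h2 : ∀ x, m x ≠ x) : Even (Nat.card T) := by
  classical
  haveI := Fintype.ofFinite T
  let σ : Equiv.Perm T := ⟨m, m, h1, h1⟩
  have hσ : σ ^ 2 = 1 := by
    ext x
    rw [pow_two, Equiv.Perm.mul_apply, Equiv.Perm.one_apply]
    exact h1 x
  have h3 := Equiv.Perm.two_dvd_card_support hσ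
  have h4 : σ.support = Finset.univ := by
    ext x
    simp only [Equiv.Perm.mem_support, Finset.mem_univ, iff_true]
    exact h2 x
  rw [h4, Finset.card_univ, ← Nat.card_eq_fintype_card] at h3
  exact even_iff_two_dvd.2 h3

variable {G X : Type*} [Group G] [Finite G] [Finite X] [MulAction G X] {D : X → X → Prop} {K : X → Subgroup G}
  {k h l lam mu : ℕ}

theorem TRS_fx (R : Rk G X D K k h l lam mu) (hev : Even h) {z : G} (hz : z ∈ IC (G := G) X) {a : X} (ha : z • a = a) :
    fx X z = Nat.card {c // (c ≠ a ∧ ¬ D a c) ∧ z • c = c} + 2 := by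
  classical
  obtain ⟨b, ⟨hb1, hb2⟩, hbu⟩ := (inv_inv R hev hz ha).2
  have hF : {x : X | z • x = x} = insert a (insert b {c | (c ≠ a ∧ ¬ D a c) ∧ z • c = c}) := by
    ext x
    simp only [Set.mem_setOf_eq, Set.mem_insert_iff]
    constructor
    · intro hx
      by_cases h1 : x = a
      · exact Or.inl h1
      by_cases h2 : D a x
      · exact Or.inr (Or.inl (hbu x ⟨h2, hx⟩))
      · exact Or.inr (Or.inr ⟨⟨h1, h2⟩, hx⟩)
    · rintro (h1 | h1 | h1)
      · rw [h1]; exact ha
      · rw [h1]; exact hb2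
      · exact h1.2
  have hab : a ≠ b := by
    intro h0; rw [← h0] at hb1; exact R.irr a hb1
  change Nat.card ({x : X | z • x = x} : Set X) = Nat.card ({c | (c ≠ a ∧ ¬ D a c) ∧ z • c = c} : Set X) + 2
  rw [hF, Nat.card_coe_set_eq, Nat.card_coe_set_eq, Set.ncard_insert_of_notMem, Set.ncard_insert_of_notMem]
  · intro hc
    exact hc.1.2 hb1
  · intro hc
    rcases hc with h0 | h0
    · exact hab h0
    · exact h0.1.1 rfl

theorem TRS_fxeven (R : Rk G X D K k h l lam mu) (hev : Even h) {z : G} (hz : z ∈ IC (G := G) X) : Even (fx X z) := by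
  classical
  have h1 : ∀ y : {x : X // z • x = x}, ∃ b : {x : X // z • x = x}, D y.1 b.1 ∧
      ∀ b' : {x : X // z • x = x}, D y.1 b'.1 → b' = b := by
    intro y
    obtain ⟨b, ⟨hb1, hb2⟩, hbu⟩ := (inv_inv R hev hz y.2).2
    exact ⟨⟨b, hb2⟩, hb1, fun b' hb' => Subtype.ext (hbu b'.1 ⟨hb', b'.2⟩)⟩
  choose m hm1 hm2 using h1
  refine TRS_even m ?_ ?_
  · intro x
    exact (hm2 (m x) x (R.symm _ _ (hm1 x))).symm
  · intro x hx
    have := hm1 x
    rw [hx] at this
    exact R.irr _ this

theorem TRS_N (R : Rk G X D K k h l lam mu) (hev : Even h) {z z' : G} (hz : z ∈ IC (G := G) X) (hz' : z' ∈ IC (G := G) X)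
    {a : X} (ha : z • a = a) (ha' : z' • a = a) :
    Nat.card {c // (c ≠ a ∧ ¬ D a c) ∧ z • c = c} = Nat.card {c // (c ≠ a ∧ ¬ D a c) ∧ z' • c = c} := by
  obtain ⟨x, hx, hxz⟩ := q34_conj R hev hz.1 hz.2.1 ha hz'.1 hz'.2.1 ha'
  have hxa := R.Kst a x hx
  have hxa' : x⁻¹ • a = a := inv_smul_eq_iff.2 hxa.symm
  refine Nat.card_congr (Equiv.subtypeEquiv (MulAction.toPerm x) ?_)
  intro c
  rw [MulAction.toPerm_apply]
  have e1 : x • c ≠ a ↔ c ≠ a := by
    constructor
    · intro h0 h1; apply h0; rw [h1]; exact hxa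
    · intro h0 h1; apply h0
      rw [← hxa] at h1
      exact MulAction.injective x h1
  have e2 : D a (x • c) ↔ D a c := by
    constructor
    · intro h0
      have := R.inv x⁻¹ _ _ h0
      rwa [hxa', inv_smul_smul] at this
    · intro h0
      have := R.inv x _ _ h0
      rwa [hxa] at this
  have e3 : z' • x • c = x • c ↔ z • c = c := by
    have h5 : z' • x • c = x • z • c := by
      rw [← hxz, mul_smul, mul_smul, inv_smul_smul]
    rw [h5]
    constructor
    · intro h0; exact MulAction.injective x h0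
    · intro h0; rw [h0]
  rw [e1, e2, e3]

theorem trs (R : Rk G X D K k h l lam mu) (hev : Even h) (ti : TI K) :
    ∃ r s, l = r * k ∧ h = r * s ∧ 2 ≤ r ∧ Even r ∧ r * mu + 1 + lam = k ∧ s ∣ mu ∧ h ∣ lam ∧
      (∀ a c, a ≠ c → ¬ D a c → Nat.card ↥(stabilizer G a ⊓ stabilizer G c) = s) ∧
      (∀ z ∈ IC (G := G) X, fx X z = if Even s then r + 2 else 2) := by
  classical
  obtain ⟨a⟩ : Nonempty X := by
    have h1 := R.cX
    have : 0 < Nat.card X := by omega
    exact (Nat.card_pos_iff.1 this).1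
  obtain ⟨⟨c, hca, hND⟩⟩ : Nonempty {c // c ≠ a ∧ ¬ D a c} := by
    have h1 := R.cN a
    have h2 := R.l1
    have : 0 < Nat.card {c // c ≠ a ∧ ¬ D a c} := by omega
    exact (Nat.card_pos_iff.1 this).1
  obtain ⟨⟨b, hab⟩⟩ : Nonempty {b // D a b} := by
    have h1 := R.cD a
    have h2 := R.k2
    have : 0 < Nat.card {b // D a b} := by omega
    exact (Nat.card_pos_iff.1 this).1
  have hac : a ≠ c := fun h => hca h.symm
  have hk0 : 0 < k := by have := R.k2; omega
  have hl0 : 0 < l := R.l1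
  obtain ⟨hhl, hl2⟩ := hl72 R
  set s := Nat.card ↥(stabilizer G a ⊓ stabilizer G c) with hsdef
  have hs : ∀ a c, a ≠ c → ¬ D a c → Nat.card ↥(stabilizer G a ⊓ stabilizer G c) = s := by
    intro a' c' h1 h2
    have h3 := hl2 a' c' h1 h2
    have h4 := hl2 a c hac hND
    rw [← h4] at h3
    exact Nat.eq_of_mul_eq_mul_left hl0 h3
  -- k ∣ l
  have hkl : k ∣ l := by
    have : ∀ a : X, Nat.card (K a) ∣ Nat.card {c // c ≠ a ∧ ¬ D a c} := by
      intro a
      letI : MulAction (K a) {c // c ≠ a ∧ ¬ D a c} :=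
        { smul := fun g c => ⟨(g : G) • (c : X), by
            refine ⟨?_, ?_⟩
            · intro h0
              have hga := R.Kst a g g.2
              apply c.2.1
              exact MulAction.injective (g : G) (h0.trans hga.symm)
            · intro h0
              have hga : (g : G)⁻¹ • a = a := inv_smul_eq_iff.2 (R.Kst a g g.2).symm
              have h1 := R.inv (g : G)⁻¹ _ _ h0
              rw [hga, inv_smul_smul] at h1
              exact c.2.2 h1⟩
          one_smul := fun c => Subtype.ext (one_smul G (c : X))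
          mul_smul := fun g g' c => Subtype.ext (mul_smul (g : G) (g' : G) (c : X)) }
      refine hl72_dvd_of_free ?_
      intro g y hgy
      have h1 : (g : G) • (y : X) = y := congrArg Subtype.val hgy
      have h2 := kc R g.2 h1
      exact Subtype.ext (ti a y (fun h0 => y.2.1 h0.symm) g g.2 h2)
    have h1 := this a
    rwa [R.Kcard, R.cN] at h1
  obtain ⟨r, hr⟩ := hkl
  have hlr : l = r * k := by rw [hr]; ring
  have hrs : h = r * s := by
    have h4 := hl2 a c hac hND
    have h5 : k * (r * s) = k * h := by rw [← h4, hr]; ring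
    exact (Nat.eq_of_mul_eq_mul_left hk0 h5).symm
  have he : r * mu + 1 + lam = k := by
    have h1 := R.eq1
    have h2 : k * (r * mu + 1 + lam) = k * k := by rw [h1, hlr]; ring
    exact Nat.eq_of_mul_eq_mul_left hk0 h2
  have hsm : s ∣ mu := by
    rw [← R.cmu a c hac hND, hsdef]
    letI : MulAction ↥(stabilizer G a ⊓ stabilizer G c) {b // D a b ∧ D c b} :=
      { smul := fun g b => ⟨(g : G) • (b : X), by
          have h1 := R.inv g a b b.2.1
          rwa [show (g : G) • a = a from g.2.1] at h1, by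
          have h1 := R.inv g c b b.2.2
          rwa [show (g : G) • c = c from g.2.2] at h1⟩
        one_smul := fun c => Subtype.ext (one_smul G (c : X))
        mul_smul := fun g g' c => Subtype.ext (mul_smul (g : G) (g' : G) (c : X)) }
    refine hl72_dvd_of_free ?_
    intro g y hgy
    have h1 : (g : G) • (y : X) = y := congrArg Subtype.val hgy
    exact Subtype.ext (R.Hfree y a c g (R.symm _ _ y.2.1) (R.symm _ _ y.2.2) hac h1 g.2.1 g.2.2)
  have hr0 : r ≠ 0 := by
    intro h0; rw [h0, zero_mul] at hlr; omega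
  -- fixed points
  have hfx : ∀ z ∈ IC (G := G) X, fx X z = if Even s then r + 2 else 2 := by
    intro z hz
    obtain ⟨y, hy⟩ := hz.2.2
    rw [TRS_fx R hev hz hy]
    split_ifs with hse
    · -- double counting
      have hex : ∀ c' : {c // c ≠ y ∧ ¬ D y c}, ∃ w : {w // w ∈ IC (G := G) X ∧ w • y = y}, (w : G) • (c' : X) = c' := by
        intro c'
        have hyc : y ≠ (c' : X) := fun h0 => c'.2.1 h0.symm
        have hcard := hs y c' hyc c'.2.2
        have hdvd : 2 ∣ Nat.card ↥(stabilizer G y ⊓ stabilizer G (c' : X)) := by rw [hcard]; exact hse.two_dvd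
        haveI : Fact (Nat.Prime 2) := ⟨Nat.prime_two⟩
        obtain ⟨i, hi⟩ := exists_prime_orderOf_dvd_card' 2 hdvd
        have hi2 : (i : G) ^ 2 = 1 := by
          have : i ^ 2 = 1 := by rw [← hi]; exact pow_orderOf_eq_one i
          exact congrArg Subtype.val this
        have hi1 : (i : G) ≠ 1 := by
          intro h0
          have : i = 1 := Subtype.ext h0
          rw [this, orderOf_one] at hi; omega
        exact ⟨⟨i, ⟨hi2, hi1, y, i.2.1⟩, i.2.1⟩, i.2.2⟩
      have e1 : Nat.card (Σ w : {w // w ∈ IC (G := G) X ∧ w • y = y}, {c // (c ≠ y ∧ ¬ D y c) ∧ (w : G) • c = c}) = l := by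
        rw [← R.cN y]
        refine Nat.card_congr (Equiv.ofBijective
          (fun p => (⟨p.2.1, p.2.2.1⟩ : {c // c ≠ y ∧ ¬ D y c})) ⟨?_, ?_⟩)
        · rintro ⟨w, c1, hc1, hc2⟩ ⟨w', c1', hc1', hc2'⟩ h0
          have h1 : c1 = c1' := congrArg Subtype.val h0
          subst h1
          have h2 : w = w' := by
            apply Subtype.ext
            exact q34_uniq R hev ti (a := y) (c := c1) (fun h0 => hc1.1 h0.symm) w'.2.1.1 w'.2.1.2.1 w'.2.2 hc2'
              w.2.1.1 w.2.1.2.1 w.2.2 hc2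
          subst h2
          rfl
        · intro c'
          obtain ⟨w, hw⟩ := hex c'
          exact ⟨⟨w, c', c'.2, hw⟩, rfl⟩
      haveI := Fintype.ofFinite {w // w ∈ IC (G := G) X ∧ w • y = y}
      rw [Nat.card_sigma] at e1
      have e2 : ∀ w ∈ (Finset.univ : Finset {w // w ∈ IC (G := G) X ∧ w • y = y}),
          Nat.card {c // (c ≠ y ∧ ¬ D y c) ∧ (w : G) • c = c} = Nat.card {c // (c ≠ y ∧ ¬ D y c) ∧ z • c = c} :=
        fun w _ => TRS_N R hev w.2.1 hz w.2.2 hy
      rw [Finset.sum_congr rfl e2, Finset.sum_const, Finset.card_univ, ← Nat.card_eq_fintype_card, inv_num R hev y,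
        smul_eq_mul, hr] at e1
      rw [Nat.eq_of_mul_eq_mul_left hk0 e1]
    · have : IsEmpty {c // (c ≠ y ∧ ¬ D y c) ∧ z • c = c} := by
        refine ⟨?_⟩
        rintro ⟨c', ⟨h1, h2⟩, h3⟩
        apply hse
        rw [← hs y c' (fun h0 => h1 h0.symm) h2, even_iff_two_dvd]
        have h4 : orderOf (⟨z, ⟨hy, h3⟩⟩ : ↥(stabilizer G y ⊓ stabilizer G c')) = 2 := by
          apply orderOf_eq_prime
          · exact Subtype.ext hz.1
          · intro h0; exact hz.2.1 (congrArg Subtype.val h0)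
        rw [← h4]
        exact orderOf_dvd_natCard _
      rw [Nat.card_of_isEmpty]
  have hre : Even r := by
    by_cases hse : Even s
    · obtain ⟨z, ⟨h1, h2, h3, h4⟩, -⟩ := inv_ex R hev hab
      have hz : z ∈ IC (G := G) X := ⟨h1, h2, a, h3⟩
      have h5 := TRS_fxeven R hev hz
      rw [hfx z hz, if_pos hse] at h5
      rw [Nat.even_add] at h5
      exact h5.2 (by decide)
    · rw [hrs, Nat.even_mul] at hev
      exact hev.resolve_right hse
  have hr2 : 2 ≤ r := by
    obtain ⟨t, ht⟩ := hre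
    omega
  exact ⟨r, s, hlr, hrs, hr2, hre, he, hsm, hhl, hs, hfx⟩

end Cfsg.Agent.Lib.FR
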