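import Mathlib
import Cfsg.Agent.Lib.FRa
import Cfsg.Agent.Lib.MinimalClass

set_option autoImplicit false

/-! S2207, piece ZA1. -/

namespace Cfsg.Agent.Lib.FR

open MulAction Subgroup

variable {G X : Type*} [Group G] [Finite G] [Finite X] [MulAction G X] {D : X → X → Prop} {K : X → Subgroup G}
  {k h l lam mu : ℕ}

/-- a nilpotent group of even order has a central involution -/
theorem za1_central {Y : Type*} [Group Y] [Finite Y] [Group.IsNilpotent Y] (h : 2 ∣ Nat.card Y) :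
    ∃ z : Y, z ≠ 1 ∧ z ^ 2 = 1 ∧ ∀ x : Y, z * x = x * z := by
  haveI : Fact (Nat.Prime 2) := ⟨Nat.prime_two⟩
  let P : Sylow 2 Y := default
  have hPn : (P : Subgroup Y).Normal := inferInstance
  have hPb : (P : Subgroup Y) ≠ ⊥ := P.ne_bot_of_dvd_card h
  obtain ⟨z, hzP, hzc, hz1⟩ := Cfsg.Agent.Lib.MinimalClass.exists_mem_center_of_normal (P : Subgroup Y) hPb
  have hzo : ∃ k, z ^ 2 ^ k = 1 := by
    obtain ⟨k, hk⟩ := P.isPGroup' ⟨z, hzP⟩
    exact ⟨k, by simpa using congrArg Subtype.val hk⟩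
  classical
  have h1 := Nat.find_spec hzo
  have h0 : Nat.find hzo ≠ 0 := by
    intro h0
    rw [h0, pow_zero, pow_one] at h1
    exact hz1 h1
  obtain ⟨j, hj⟩ := Nat.exists_eq_succ_of_ne_zero h0
  refine ⟨z ^ 2 ^ j, fun h2 => ?_, ?_, fun x => ?_⟩
  · have := Nat.find_min' hzo h2
    omega
  · rw [hj, pow_succ, pow_mul] at h1
    exact h1
  · exact ((mem_center_iff.1 (Subgroup.pow_mem _ hzc (2 ^ j))) x).symm

theorem za1 (R : Rk G X D K k h l lam mu) (hk : Even k) {a c : X} (hac : a ≠ c) (hN : ¬ D a c) :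
    ∃ u ∈ Za K a, u ∉ K c := by
  haveI := R.Knil a
  obtain ⟨z, hz1, hz2, hzc⟩ := za1_central (Y := K a) (by rw [R.Kcard a]; exact hk.two_dvd)
  obtain ⟨c', hc'a, hc'D, hc'⟩ := R.prim1 a z z.2 (fun h => hz1 (Subtype.ext h))
  obtain ⟨g, hga, hgc⟩ := R.trN a c' a c (Ne.symm hc'a) hc'D hac hN
  have hK : ∀ x ∈ K a, g * x * g⁻¹ ∈ K a := by
    intro x hx
    have := R.Kconj g a x hx
    rwa [hga] at this
  have hga' : g⁻¹ • a = a := by rw [inv_smul_eq_iff, hga]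
  have hK' : ∀ x ∈ K a, g⁻¹ * x * g ∈ K a := by
    intro x hx
    have := R.Kconj g⁻¹ a x hx
    rwa [hga', inv_inv] at this
  refine ⟨g * z * g⁻¹, ⟨hK _ z.2, ?_, ?_⟩, ?_⟩
  · have h1 : (z : G) ^ 2 = 1 := by
      have := congrArg Subtype.val hz2
      simpa using this
    rw [conj_pow, h1, mul_one, mul_inv_cancel]
  · intro x hx
    have h1 := congrArg Subtype.val (hzc ⟨g⁻¹ * x * g, hK' x hx⟩)
    have h2 : (z : G) * (g⁻¹ * x * g) = (g⁻¹ * x * g) * z := h1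
    calc g * (z : G) * g⁻¹ * x = g * ((z : G) * (g⁻¹ * x * g)) * g⁻¹ := by group
      _ = g * ((g⁻¹ * x * g) * z) * g⁻¹ := by rw [h2]
      _ = x * (g * z * g⁻¹) := by group
  · intro hu
    have h1 := R.Kst c _ hu
    apply hc'
    have h2 : g⁻¹ • c = c' := by rw [inv_smul_eq_iff, hgc]
    rw [mul_smul, mul_smul, h2, ← hgc] at h1
    exact smul_left_cancel g h1

end Cfsg.Agent.Lib.FR
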