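import Cfsg.Agent.Lib.FRb

/-! S2207: pieces ZB and ZD (helper62). -/

set_option autoImplicit false
set_option linter.all false

namespace Cfsg.Agent.Lib.FR

open MulAction Subgroup

variable {G X : Type*} [Group G] [Finite G] [Finite X] [MulAction G X] {D : X → X → Prop} {K : X → Subgroup G}
  {k h l lam mu : ℕ}

theorem ZB_conj (R : Rk G X D K k h l lam mu) {a : X} {u : G} (hu : u ∈ Za K a) (g : G) : g * u * g⁻¹ ∈ Za K (g • a) := by
  obtain ⟨h1, h2, h3⟩ := hu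
  refine ⟨R.Kconj g a u h1, ?_, ?_⟩
  · have : (g * u * g⁻¹) ^ 2 = g * u ^ 2 * g⁻¹ := by rw [pow_two, pow_two]; group
    rw [this, h2]; group
  · intro x hx
    have h4 := R.Kconj g⁻¹ (g • a) x hx
    rw [inv_smul_smul, inv_inv] at h4
    have h5 := h3 _ h4
    calc g * u * g⁻¹ * x = g * (u * (g⁻¹ * x * g)) * g⁻¹ := by group
      _ = g * ((g⁻¹ * x * g) * u) * g⁻¹ := by rw [h5]
      _ = x * (g * u * g⁻¹) := by group

theorem zb (R : Rk G X D K k h l lam mu) (hk : Even k)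
    (hpar : ∀ a c, a ≠ c → ¬ D a c → ∀ g : G, g • a = a → g • c = c → g ∈ K a) (nt : NT D K) (S : S2 D K)
    (hz : ∀ a c, a ≠ c → ¬ D a c → ∃ u ∈ Za K a, u ∉ K c) {a c : X} {u : G} (hu : u ∈ Za K a)
    (hc : u • c = c) (hu1 : u ≠ 1) : u ∈ Za K c := by
  by_cases hca : c = a
  · rw [hca]; exact hu
  have hac : a ≠ c := fun h => hca h.symm
  have hN : ¬ D a c := fun hD => hu1 (R.Kfree a c u hu.1 hD hc)
  have hN' : ¬ D c a := fun hD => hN (R.symm _ _ hD)
  obtain ⟨S1, -, -, y, hy, hya, hyc, hsw⟩ := S a c hac hN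
  have hPa : ∀ x ∈ K a ⊓ K c, x • a = a := fun x hx => R.Kst a x hx.1
  obtain ⟨h1, h2⟩ := S1 y a hy hPa hya
  obtain ⟨v, hv, hvK⟩ := hz y a hya h1
  have hPy : K a ⊓ K c ≤ K y := by rw [← h2]; exact inf_le_left
  have hvc : ∀ x ∈ K a ⊓ K c, v * x = x * v := fun x hx => hv.2.2 x (hPy hx)
  have hvn : v ∈ normalizer ((K a ⊓ K c : Subgroup G) : Set G) := by
    rw [Subgroup.mem_normalizer_iff]
    intro x
    constructor
    · intro hx
      have : v * x * v⁻¹ = x := by rw [hvc x hx, mul_inv_cancel_right]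
      rw [this]; exact hx
    · intro hx
      have h3 : v⁻¹ * (v * x * v⁻¹) * v = x := by group
      have h4 : v⁻¹ * (v * x * v⁻¹) = (v * x * v⁻¹) * v⁻¹ := by
        have h5 := hvc _ hx
        calc v⁻¹ * (v * x * v⁻¹) = v⁻¹ * ((v * x * v⁻¹) * v) * v⁻¹ := by group
          _ = v⁻¹ * (v * (v * x * v⁻¹)) * v⁻¹ := by rw [h5]
          _ = (v * x * v⁻¹) * v⁻¹ := by group
      rw [h4, inv_mul_cancel_right] at h3
      rw [← h3]; exact hx
  have hvP : v ∉ K a ⊓ K c := fun hv' => hvK hv'.1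
  obtain ⟨h5, -⟩ := hsw v hvn (R.Kst y v hv.1) (by rw [hv.2.1]; exact one_mem _) hvP
  have huc : u ∈ K c := hpar c a hca hN' u hc (R.Kst a u hu.1)
  have h6 := hvc u ⟨hu.1, huc⟩
  have h7 := ZB_conj R hu v
  rw [h5, h6, mul_inv_cancel_right] at h7
  exact h7

theorem zd (R : Rk G X D K k h l lam mu) (hk : Even k)
    (hpar : ∀ a c, a ≠ c → ¬ D a c → ∀ g : G, g • a = a → g • c = c → g ∈ K a) (nt : NT D K) (S : S2 D K)
    (hb : ∀ (a c : X) (u : G), u ∈ Za K a → u • c = c → u ≠ 1 → u ∈ Za K c)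
    (hc : ∀ (a : X) (u : G), u ∈ Za K a → u ≠ 1 → ∃ c, c ≠ a ∧ u • c = c)
    {a : X} {u : G} (hu : u ∈ Za K a) (hu1 : u ≠ 1) (x : X) : ¬ D x (u • x) := by
  -- a point moved to a neighbour is adjacent to all fixed points
  have key : ∀ x : X, D x (u • x) → ∀ y : X, u • y = y → D y x := by
    intro x hx y hy
    by_contra hN
    have huy : u ∈ Za K y := hb a y u hu hy hu1
    have hyx : y ≠ x := by
      rintro rfl
      rw [hy] at hx
      exact R.irr y hx
    obtain ⟨S1, -⟩ := S y x hyx hN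
    have h1 : ∀ p ∈ K y ⊓ K x, p • x = x := fun p hp => R.Kst x p hp.2
    have h2 : ∀ p ∈ K y ⊓ K x, p • (u • x) = u • x := by
      intro p hp
      rw [← mul_smul, ← huy.2.2 p hp.1, mul_smul, h1 p hp]
    have hne : x ≠ u • x := by
      intro he
      rw [← he] at hx
      exact R.irr x hx
    exact (S1 x (u • x) h1 h2 hne).1 hx
  intro hx
  obtain ⟨c, hca, huc⟩ := hc a u hu hu1
  have hua : u • a = a := R.Kst a u hu.1
  apply hca
  symm
  apply R.prim3 a c
  intro b hab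
  obtain ⟨g, hg, rfl⟩ := R.Kreg a x b (key x hx a hua) hab
  refine key (g • x) ?_ c huc
  have h3 : u • (g • x) = g • (u • x) := by
    rw [← mul_smul, hu.2.2 g hg, mul_smul]
  rw [h3]
  exact R.inv g _ _ hx

end Cfsg.Agent.Lib.FR
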