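import Cfsg.Agent.Lib.FRa

set_option autoImplicit false

namespace Cfsg.Agent.Lib.FR

open MulAction Subgroup

variable {G X : Type*} [Group G] [MulAction G X]

/-- conclusions of `s2t` for all pairs -/
def S2 (D : X → X → Prop) (K : X → Subgroup G) : Prop := ∀ a c, a ≠ c → ¬ D a c →
    (∀ y y' : X, (∀ x ∈ K a ⊓ K c, x • y = y) → (∀ x ∈ K a ⊓ K c, x • y' = y') → y ≠ y' → ¬ D y y' ∧ K y ⊓ K y' = K a ⊓ K c) ∧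
    (∀ g : G, g ∈ normalizer ((K a ⊓ K c : Subgroup G) : Set G) → g ^ 2 ∈ K a ⊓ K c → g ∉ K a ⊓ K c →
      ∃! y : X, (∀ x ∈ K a ⊓ K c, x • y = y) ∧ g • y = y) ∧
    (∀ g1 g2 : G, g1 ∈ normalizer ((K a ⊓ K c : Subgroup G) : Set G) → g2 ∈ normalizer ((K a ⊓ K c : Subgroup G) : Set G) →
      g1 ^ 2 ∈ K a ⊓ K c → g2 ^ 2 ∈ K a ⊓ K c → g1 ∉ K a ⊓ K c → g2 ∉ K a ⊓ K c → g1 • a = a → g2 • a = a →
      g1 * g2⁻¹ ∈ K a ⊓ K c) ∧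
    (∃ y : X, (∀ x ∈ K a ⊓ K c, x • y = y) ∧ y ≠ a ∧ y ≠ c ∧ ∀ g ∈ normalizer ((K a ⊓ K c : Subgroup G) : Set G),
      g • y = y → g ^ 2 ∈ K a ⊓ K c → g ∉ K a ⊓ K c → g • a = c ∧ g • c = a)


end Cfsg.Agent.Lib.FR
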