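import Cfsg.Agent.Lib.FRa
import Cfsg.Agent.Lib.FRb

/-! S2207 (plan of helper31), piece ZC (helper23). -/

set_option autoImplicit false
set_option linter.all false

namespace Cfsg.Agent.Lib.FR

open MulAction Subgroup

variable {G X : Type*} [Group G] [Finite G] [Finite X] [MulAction G X] {D : X → X → Prop} {K : X → Subgroup G}
  {k h l lam mu : ℕ}

theorem ZC_norm {a : X} {u : G} (hu : u ∈ Za K a) {P : Subgroup G} (hP : P ≤ K a) : u ∈ normalizer (P : Set G) := by
  rw [mem_normalizer_iff]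
  intro n
  constructor
  · intro hn
    rw [hu.2.2 n (hP hn), mul_inv_cancel_right]; exact hn
  · intro hn
    have h1 := hu.2.2 _ (hP hn)
    have h2 : n = u * n * u⁻¹ := by
      calc n = u⁻¹ * (u * n * u⁻¹ * u) := by group
        _ = u⁻¹ * (u * (u * n * u⁻¹)) := by rw [← h1]
        _ = u * n * u⁻¹ := by group
    rw [h2]; exact hn

theorem zc (R : Rk G X D K k h l lam mu) (hk : Even k)
    (hpar : ∀ a c, a ≠ c → ¬ D a c → ∀ g : G, g • a = a → g • c = c → g ∈ K a) (nt : NT D K) (S : S2 D K)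
    {a : X} {u : G} (hu : u ∈ Za K a) (hu1 : u ≠ 1) : ∃ c, c ≠ a ∧ u • c = c := by
  by_contra hcon
  push Not at hcon
  -- an element of the complement
  obtain ⟨b, hab⟩ : ∃ b, D a b := by
    have h1 := R.cD a
    have h2 := R.k2
    haveI : Nonempty {b // D a b} := by
      by_contra hne
      rw [not_nonempty_iff] at hne
      rw [Nat.card_of_isEmpty] at h1
      omega
    obtain ⟨b⟩ := this
    exact ⟨b.1, b.2⟩
  obtain ⟨g, hg, hg1⟩ : ∃ g ∈ stabilizer G a ⊓ stabilizer G b, g ≠ 1 := by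
    by_contra hne
    push Not at hne
    have h1 : stabilizer G a ⊓ stabilizer G b = ⊥ := (Subgroup.eq_bot_iff_forall _).2 hne
    have h2 := R.Hcard a b hab
    rw [h1, Subgroup.card_bot] at h2
    have := R.h2
    omega
  have hga : g • a = a := hg.1
  have hgb : g • b = b := hg.2
  have hua : u • a = a := R.Kst a u hu.1
  have hgKa : ∀ x ∈ K a, g * x * g⁻¹ ∈ K a := fun x hx => by
    have := R.Kconj g a x hx
    rwa [hga] at this
  have hginv : g⁻¹ • a = a := by rw [inv_smul_eq_iff]; exact hga.symm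
  have hgKa' : ∀ x ∈ K a, g⁻¹ * x * g ∈ K a := fun x hx => by
    have := R.Kconj g⁻¹ a x hx
    rwa [hginv, inv_inv] at this
  obtain ⟨u2, hu2d⟩ : ∃ u2, u2 = g * u * g⁻¹ := ⟨_, rfl⟩
  have hu2 : u2 ∈ Za K a := by
    refine ⟨by rw [hu2d]; exact hgKa u hu.1, ?_, fun x hx => ?_⟩
    · rw [hu2d, conj_pow, hu.2.1, mul_one, mul_inv_cancel]
    · have h1 := hu.2.2 _ (hgKa' x hx)
      rw [hu2d]
      calc g * u * g⁻¹ * x = g * (u * (g⁻¹ * x * g)) * g⁻¹ := by group
        _ = g * (g⁻¹ * x * g * u) * g⁻¹ := by rw [h1]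
        _ = x * (g * u * g⁻¹) := by group
  have hne : u ≠ u2 := by
    intro heq
    apply hg1
    have hcomm : g * u = u * g := by
      calc g * u = (g * u * g⁻¹) * g := by group
        _ = u * g := by rw [← hu2d, ← heq]
    have hub : u • b ≠ b := fun h1 => hu1 (R.Kfree a b u hu.1 hab h1)
    have hab' : D a (u • b) := by
      have := R.inv u a b hab
      rwa [hua] at this
    exact R.Hfree a b (u • b) g hab hab' (Ne.symm hub) hga hgb (by
      rw [← mul_smul, hcomm, mul_smul, hgb])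
  have hu2fix : ∀ c, c ≠ a → u2 • c ≠ c := by
    intro c hc h1
    have h2 : u • (g⁻¹ • c) = g⁻¹ • c := by
      rw [hu2d, mul_smul, mul_smul] at h1
      rw [eq_inv_smul_iff]; exact h1
    by_cases h3 : g⁻¹ • c = a
    · apply hc
      rw [inv_smul_eq_iff] at h3
      rw [h3, hga]
    · exact hcon _ h3 h2
  -- the product fixes all of Gamma(a)
  obtain ⟨c, hca, hNac, hmove⟩ := R.prim1 a (u * u2⁻¹) ((K a).mul_mem hu.1 ((K a).inv_mem hu2.1)) (by
    intro h1
    exact hne (mul_inv_eq_one.1 h1))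
  apply hmove
  have hcl := (S a c (Ne.symm hca) hNac).2.2.1 u u2 (ZC_norm hu inf_le_left) (ZC_norm hu2 inf_le_left)
    (by rw [hu.2.1]; exact one_mem _) (by rw [hu2.2.1]; exact one_mem _)
    (fun h1 => hcon c hca (R.Kst c u h1.2)) (fun h1 => hu2fix c hca (R.Kst c u2 h1.2)) hua (R.Kst a u2 hu2.1)
  exact R.Kst c _ hcl.2

end Cfsg.Agent.Lib.FR
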