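import Cfsg.Agent.Lib.FrobSchur2
import Cfsg.Agent.Lib.CanonExt
import Cfsg.Agent.Lib.BlockDeg

set_option autoImplicit false
set_option linter.all false

/-!
# Frobenius–Schur indicator of a character induced from the inertia group (helper82)
-/

namespace Cfsg.Agent.Lib.FSInd82

open scoped ComplexConjugate
open Cfsg Cfsg.Agent.Lib.CharBasic Cfsg.Agent.Lib.Clifford Cfsg.Agent.Lib.CliffordCorr Cfsg.Agent.Lib.FrobSchur

universe u

variable {G : Type u} [Group G]

section Mat

variable {n : ℕ}

/-- `A ↦ X A Yᵀ` -/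
noncomputable def op2 (X Y : Matrix (Fin n) (Fin n) ℂ) :
    Matrix (Fin n) (Fin n) ℂ →ₗ[ℂ] Matrix (Fin n) (Fin n) ℂ where
  toFun A := X * A * Y.transpose
  map_add' A B := by rw [Matrix.mul_add, Matrix.add_mul]
  map_smul' c A := by simp

theorem op2_apply (X Y A : Matrix (Fin n) (Fin n) ℂ) : op2 X Y A = X * A * Y.transpose := rfl

theorem single_op2 (X Y : Matrix (Fin n) (Fin n) ℂ) (i j k l : Fin n) :
    (X * (Matrix.single i j 1 : Matrix (Fin n) (Fin n) ℂ) * Y.transpose) k l = X k i * Y l j := by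
  rw [Matrix.mul_apply]
  rw [Finset.sum_eq_single j]
  · rw [Matrix.mul_single_apply_same]
    simp [Matrix.transpose_apply]
  · intro b _ hb
    rw [Matrix.mul_single_apply_of_ne _ _ _ _ _ hb]
    simp
  · intro h; exact absurd (Finset.mem_univ j) h

theorem trace_op2 (X Y : Matrix (Fin n) (Fin n) ℂ) :
    LinearMap.trace ℂ _ (op2 X Y) = X.trace * Y.trace := by
  rw [trace_eq_sum]
  simp only [op2_apply, single_op2]
  rw [Matrix.trace, Matrix.trace, Finset.sum_mul]
  apply Finset.sum_congr rfl
  intro i _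
  rw [Finset.mul_sum]
  rfl

variable [Fintype G]

theorem coef_sum_zero (X Y : G →* Matrix (Fin n) (Fin n) ℂ)
    (h : ∑ g : G, (X g).trace * (Y g).trace = 0) (i j k l : Fin n) :
    ∑ g : G, X g i j * Y g k l = 0 := by
  set P : Matrix (Fin n) (Fin n) ℂ →ₗ[ℂ] Matrix (Fin n) (Fin n) ℂ :=
    (Nat.card G : ℂ)⁻¹ • ∑ g : G, op2 (X g) (Y g) with hP
  have hPa : ∀ A, P A = (Nat.card G : ℂ)⁻¹ • ∑ g : G, X g * A * (Y g).transpose := by
    intro A
    simp [hP, op2_apply]
  have hcard : (Nat.card G : ℂ) ≠ 0 := by exact_mod_cast Nat.card_pos.ne'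
  have hinv : ∀ (g : G) (A : Matrix (Fin n) (Fin n) ℂ), X g * P A * (Y g).transpose = P A := by
    intro g A
    rw [hPa, Matrix.mul_smul, Matrix.smul_mul, Matrix.mul_sum, Matrix.sum_mul]
    congr 1
    refine Fintype.sum_equiv (Equiv.mulLeft g) _ _ ?_
    intro x
    simp only [Equiv.coe_mulLeft, map_mul, Matrix.transpose_mul]
    simp only [Matrix.mul_assoc]
  have hPP : IsIdempotentElem P := by
    ext A : 1
    show P (P A) = P A
    conv_lhs => rw [hPa]
    simp only [hinv, Finset.sum_const, Finset.card_univ, ← Nat.card_eq_fintype_card]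
    rw [← Nat.cast_smul_eq_nsmul ℂ, smul_smul, inv_mul_cancel₀ hcard, one_smul]
  have htr : LinearMap.trace ℂ _ P = 0 := by
    rw [hP, map_smul, map_sum]
    simp only [trace_op2]
    rw [h, smul_zero]
  have hdim : Module.finrank ℂ (LinearMap.range P) = 0 := by
    have := trace_eq_finrank P hPP
    rw [htr] at this
    exact_mod_cast this.symm
  have hbot : LinearMap.range P = ⊥ := Submodule.finrank_eq_zero.mp hdim
  have hP0 : P = 0 := LinearMap.range_eq_bot.mp hbot
  have h1 := hPa (Matrix.single j l 1)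
  rw [hP0, LinearMap.zero_apply] at h1
  have h2 : ∑ g : G, X g * (Matrix.single j l 1 : Matrix (Fin n) (Fin n) ℂ) * (Y g).transpose = 0 := by
    rcases smul_eq_zero.mp h1.symm with h3 | h3
    · exact absurd h3 (inv_ne_zero hcard)
    · exact h3
  have h3 := congrFun (congrFun h2 i) k
  rw [Matrix.sum_apply] at h3
  simp only [single_op2] at h3
  exact h3

theorem trace_sum_zero (X Y : G →* Matrix (Fin n) (Fin n) ℂ) (A : Matrix (Fin n) (Fin n) ℂ)
    (h : ∑ g : G, (X g).trace * (Y g).trace = 0) :
    ∑ g : G, (A * (X g * Y g)).trace = 0 := by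
  have h1 : ∑ g : G, X g * Y g = 0 := by
    ext i l
    rw [Matrix.sum_apply]
    simp only [Matrix.mul_apply, Matrix.zero_apply]
    rw [Finset.sum_comm]
    exact Finset.sum_eq_zero fun j _ => coef_sum_zero X Y h i j j l
  rw [← Matrix.trace_sum, ← Matrix.mul_sum, h1, Matrix.mul_zero, Matrix.trace_zero]

end Mat

section Main

variable {N : Subgroup G} [hN : N.Normal] [Fintype G]

/-- sum over the squares of the induced function -/
theorem sum_ind_sq (T : Subgroup G) (ψ : T → ℂ) :
    ∑ g : G, indFun T ψ (g * g) = (Nat.card G : ℂ) * (Nat.card T : ℂ)⁻¹ * ∑ g : G, extendByZero T ψ (g * g) := by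
  simp only [IndFun.indFun_apply]
  rw [← Finset.mul_sum, Finset.sum_comm]
  have h2 : ∀ x : G, ∑ g : G, extendByZero T ψ (x⁻¹ * (g * g) * x) = ∑ g : G, extendByZero T ψ (g * g) := by
    intro x
    refine Fintype.sum_equiv (MulAut.conj x⁻¹).toEquiv _ _ ?_
    intro g
    congr 1
    simp only [MulEquiv.toEquiv_eq_coe, EquivLike.coe_coe, MulAut.conj_apply]
    group
  simp only [h2]
  rw [Finset.sum_const, Finset.card_univ, ← Nat.card_eq_fintype_card, nsmul_eq_mul]
  ring

/-- the restriction to `N` of a representation of `T ≥ N` -/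
noncomputable def resMat {n : ℕ} {T : Subgroup G} (hNT : N ≤ T) (ρ : Representation ℂ T (Fin n → ℂ)) :
    N →* Matrix (Fin n) (Fin n) ℂ := (matRep ρ).comp (Subgroup.inclusion hNT)

omit hN [Fintype G] in
theorem trace_resMat {n : ℕ} {T : Subgroup G} (hNT : N ≤ T) (ρ : Representation ℂ T (Fin n → ℂ)) (x : N) :
    (resMat hNT ρ x).trace = resTo N T hNT ρ.character x := trace_matRep ρ _

theorem sum_coset_zero {T : Subgroup G} (hNT : N ≤ T) {n : ℕ} (ρ : Representation ℂ T (Fin n → ℂ))
    (hθ : IsIrrCharacter N (resTo N T hNT ρ.character)) (hT : ∀ g : G, cj N g (resTo N T hNT ρ.character) = resTo N T hNT ρ.character → g ∈ T)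
    (hreal : ∀ x : N, (resTo N T hNT ρ.character x).im = 0) [Fintype N] (g : G) (hg : g ∉ T) :
    ∑ x : N, extendByZero T ρ.character (g * x * (g * x)) = 0 := by
  classical
  set θ := resTo N T hNT ρ.character with hθdef
  have hx : ∀ x : N, g * x * (g * x) = g * g * (((MulAut.conjNormal g⁻¹ x : N) : G) * x) := by
    intro x
    rw [MulAut.conjNormal_apply]
    group
  by_cases h2 : g * g ∈ T
  · have h3 : ∀ x : N, extendByZero T ρ.character (g * x * (g * x)) =
        (matRep ρ ⟨g * g, h2⟩ * (((resMat hNT ρ).comp (MulAut.conjNormal g⁻¹ : N ≃* N).toMonoidHom) x * resMat hNT ρ x)).trace := by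
      intro x
      have h4 : g * x * (g * x) ∈ T := by
        rw [hx]
        exact T.mul_mem h2 (T.mul_mem (hNT (SetLike.coe_mem _)) (hNT x.2))
      rw [IndFun.extendByZero_mem _ _ h4]
      rw [← trace_matRep]
      congr 1
      rw [resMat, MonoidHom.comp_apply, MonoidHom.comp_apply, MonoidHom.comp_apply, ← map_mul, ← map_mul]
      congr 1
      apply Subtype.ext
      exact hx x
    simp only [h3]
    apply trace_sum_zero
    have h5 : ∀ x : N, (((resMat hNT ρ).comp (MulAut.conjNormal g⁻¹ : N ≃* N).toMonoidHom) x).trace * (resMat hNT ρ x).trace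
        = cj N g⁻¹ θ x * conj (θ x) := by
      intro x
      rw [MonoidHom.comp_apply, trace_resMat, trace_resMat, Complex.conj_eq_iff_im.mpr (hreal x)]
      rfl
    simp only [h5]
    have h6 : classInner (cj N g⁻¹ θ) θ = 0 := by
      apply (isIrrCharacter_cj hθ g⁻¹).classInner_eq_zero hθ
      intro h
      exact hg (by simpa using T.inv_mem (hT g⁻¹ h))
    rw [classInner_def] at h6
    rcases mul_eq_zero.mp h6 with h7 | h7
    · exact absurd h7 (inv_ne_zero (by exact_mod_cast Nat.card_pos.ne'))
    · exact h7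
  · apply Finset.sum_eq_zero
    intro x _
    apply IndFun.extendByZero_not_mem
    rw [hx]
    intro h
    apply h2
    have h4 : (((MulAut.conjNormal g⁻¹ x : N) : G) * x) ∈ T := T.mul_mem (hNT (SetLike.coe_mem _)) (hNT x.2)
    have h5 := T.mul_mem h (T.inv_mem h4)
    rwa [mul_inv_cancel_right] at h5

/-- The Frobenius–Schur indicator of the character induced from the inertia group of a real-valued character
which extends. -/
theorem fsInd_ind {T : Subgroup G} [Fintype T] (hNT : N ≤ T) {ψ : T → ℂ} (hψ : IsIrrCharacter T ψ)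
    (hθ : IsIrrCharacter N (resTo N T hNT ψ)) (hT : ∀ g : G, cj N g (resTo N T hNT ψ) = resTo N T hNT ψ → g ∈ T)
    (hreal : ∀ x : N, (resTo N T hNT ψ x).im = 0) : fsInd (indFun T ψ) = fsInd ψ := by
  classical
  have := Fintype.ofFinite N
  obtain ⟨n, ρ, hρ, rfl⟩ := hψ
  have h1 : ∑ g : G, (if g ∈ T then 0 else extendByZero T ρ.character (g * g)) = 0 := by
    have h2 : ∀ x : N, ∑ g : G, (if g ∈ T then 0 else extendByZero T ρ.character (g * g)) =
        ∑ g : G, (if g ∈ T then 0 else extendByZero T ρ.character (g * x * (g * x))) := by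
      intro x
      refine (Fintype.sum_equiv (Equiv.mulRight (x : G)) _ _ ?_).symm
      intro g
      simp only [Equiv.coe_mulRight]
      have h3 : g * (x : G) ∈ T ↔ g ∈ T := Subgroup.mul_mem_cancel_right _ (hNT x.2)
      simp only [h3]
    have h3 : (Nat.card N : ℂ) * ∑ g : G, (if g ∈ T then 0 else extendByZero T ρ.character (g * g)) =
        ∑ x : N, ∑ g : G, (if g ∈ T then 0 else extendByZero T ρ.character (g * x * (g * x))) := by
      rw [← Finset.sum_congr rfl (fun x _ => h2 x), Finset.sum_const, Finset.card_univ, ← Nat.card_eq_fintype_card,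
        nsmul_eq_mul]
    rw [Finset.sum_comm] at h3
    have h4 : ∑ g : G, ∑ x : N, (if g ∈ T then (0 : ℂ) else extendByZero T ρ.character (g * x * (g * x))) = 0 := by
      apply Finset.sum_eq_zero
      intro g _
      by_cases hg : g ∈ T
      · simp [hg]
      · simp only [hg, if_false]
        exact sum_coset_zero hNT ρ hθ hT hreal g hg
    rw [h4] at h3
    rcases mul_eq_zero.mp h3 with h5 | h5
    · exact absurd h5 (by exact_mod_cast Nat.card_pos.ne')
    · exact h5
  have h2 : ∑ g : G, extendByZero T ρ.character (g * g) = ∑ t : T, ρ.character (t * t) := by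
    have h3 : ∀ g : G, extendByZero T ρ.character (g * g) =
        extendByZero T (fun t : T => ρ.character (t * t)) g + (if g ∈ T then 0 else extendByZero T ρ.character (g * g)) := by
      intro g
      by_cases hg : g ∈ T
      · rw [if_pos hg, add_zero, IndFun.extendByZero_mem _ _ hg, IndFun.extendByZero_mem _ _ (T.mul_mem hg hg)]
        rfl
      · rw [if_neg hg, IndFun.extendByZero_not_mem _ _ hg, zero_add]
    rw [Finset.sum_congr rfl (fun g _ => h3 g), Finset.sum_add_distrib, h1, add_zero, IndFun.sum_extendByZero]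
  rw [fsInd, sum_ind_sq, h2, fsInd, ← mul_assoc, ← mul_assoc, inv_mul_cancel₀ (by exact_mod_cast Nat.card_pos.ne'), one_mul]

end Main

end Cfsg.Agent.Lib.FSInd82
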