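import Cfsg.Agent.Lib.FXMod

set_option autoImplicit false

/-! The isomorphism type of an endomorphism `f` of a finite-dimensional space as a multiset of pairs `(p, k)`
(`p` monic irreducible, `k > 0`): `HasType f s` says `(V, f) ≃ ⊕_{(p,k) ∈ s} F[X]/(p^k)`.  Existence, uniqueness, dimensions of
`ker g(f)`, direct sums, similarity criterion.  (helper43) -/

namespace Cfsg.Agent.Lib.FXType

open Module Polynomial

universe u v w

/-! ### Equality of multisets gives bijections -/

theorem exists_equiv_of_map_eq {ι : Type v} {κ : Type w} {α : Type u} [Fintype ι] [Fintype κ] (a : ι → α) (b : κ → α)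
    (h : Finset.univ.val.map a = Finset.univ.val.map b) : ∃ σ : ι ≃ κ, ∀ i, b (σ i) = a i := by
  classical
  have hc : ∀ x : α, Nonempty ({i // a i = x} ≃ {j // b j = x}) := by
    intro x
    have h1 := congrArg (Multiset.count x) h
    rw [Multiset.count_map, Multiset.count_map] at h1
    refine ⟨Fintype.equivOfCardEq ?_⟩
    rw [Fintype.card_subtype, Fintype.card_subtype]
    have e1 : (Finset.univ.filter fun i => a i = x).card = (Finset.univ.val.filter fun i => x = a i).card := by
      rw [← Finset.filter_val, Finset.card_val]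
      congr 1
      ext i
      simp [eq_comm]
    have e2 : (Finset.univ.filter fun i => b i = x).card = (Finset.univ.val.filter fun i => x = b i).card := by
      rw [← Finset.filter_val, Finset.card_val]
      congr 1
      ext i
      simp [eq_comm]
    rw [e1, e2, h1]
  let e : ∀ x, {i // a i = x} ≃ {j // b j = x} := fun x => (hc x).some
  refine ⟨((Equiv.sigmaFiberEquiv a).symm.trans (Equiv.sigmaCongrRight e)).trans (Equiv.sigmaFiberEquiv b), ?_⟩
  intro i
  exact (e (a i) ⟨i, rfl⟩).2

variable {F : Type u} [Field F]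

/-! ### Kernels on cyclic modules -/

theorem finrank_adjoinRoot (D : F[X]) (hD : D ≠ 0) : finrank F (AdjoinRoot D) = D.natDegree := by
  rw [(AdjoinRoot.powerBasis hD).finrank, AdjoinRoot.powerBasis_dim]

theorem finite_adjoinRoot (D : F[X]) (hD : D ≠ 0) : FiniteDimensional F (AdjoinRoot D) :=
  (AdjoinRoot.powerBasis hD).finite

theorem algHomOfDvd_mk (f g : F[X]) (h : g ∣ f) (x : F[X]) :
    AdjoinRoot.algHomOfDvd F f g h (AdjoinRoot.mk f x) = AdjoinRoot.mk g x := by
  rw [← AdjoinRoot.aeval_eq, ← Polynomial.aeval_algHom_apply, AdjoinRoot.algHomOfDvd_root, AdjoinRoot.aeval_eq]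

/-- degree of the gcd -/
noncomputable def gdeg (g h : F[X]) : ℕ := by
  classical
  exact (EuclideanDomain.gcd g h).natDegree

theorem finrank_ker_mul (g h : F[X]) (hh : h ≠ 0) :
    finrank F (LinearMap.ker (LinearMap.mulLeft F (AdjoinRoot.mk h g))) = gdeg g h := by
  classical
  show _ = (EuclideanDomain.gcd g h).natDegree
  set D := EuclideanDomain.gcd g h with hD
  have hDh : D ∣ h := EuclideanDomain.gcd_dvd_right g h
  have hDg : D ∣ g := EuclideanDomain.gcd_dvd_left g h
  have hD0 : D ≠ 0 := ne_zero_of_dvd_ne_zero hh hDh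
  have := finite_adjoinRoot h hh
  have := finite_adjoinRoot D hD0
  let φ : AdjoinRoot h →ₗ[F] AdjoinRoot D := (AdjoinRoot.algHomOfDvd F h D hDh).toLinearMap
  have hφ : ∀ x, φ (AdjoinRoot.mk h x) = AdjoinRoot.mk D x := algHomOfDvd_mk h D hDh
  have hsurj : LinearMap.range φ = ⊤ := by
    rw [LinearMap.range_eq_top]
    intro y
    obtain ⟨y, rfl⟩ := AdjoinRoot.mk_surjective y
    exact ⟨_, hφ y⟩
  have hker : LinearMap.ker φ = LinearMap.range (LinearMap.mulLeft F (AdjoinRoot.mk h g)) := by
    ext x
    obtain ⟨x, rfl⟩ := AdjoinRoot.mk_surjective x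
    rw [LinearMap.mem_ker, hφ, AdjoinRoot.mk_eq_zero, LinearMap.mem_range]
    constructor
    · rintro ⟨c, rfl⟩
      refine ⟨AdjoinRoot.mk h (EuclideanDomain.gcdA g h * c), ?_⟩
      rw [LinearMap.mulLeft_apply, ← map_mul, hD, EuclideanDomain.gcd_eq_gcd_ab g h, add_mul, map_add]
      have : AdjoinRoot.mk h (h * EuclideanDomain.gcdB g h * c) = 0 := by
        rw [AdjoinRoot.mk_eq_zero]; exact ⟨EuclideanDomain.gcdB g h * c, by ring⟩
      rw [this, add_zero, mul_assoc]
    · rintro ⟨y, hy⟩
      obtain ⟨y, rfl⟩ := AdjoinRoot.mk_surjective y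
      rw [LinearMap.mulLeft_apply, ← map_mul, AdjoinRoot.mk_eq_mk] at hy
      have h1 : D ∣ g * y - x := hDh.trans hy
      have h2 : D ∣ g * y := Dvd.dvd.mul_right hDg y
      exact (dvd_sub_right h2).mp h1
  have r1 := LinearMap.finrank_range_add_finrank_ker φ
  have r2 := LinearMap.finrank_range_add_finrank_ker (LinearMap.mulLeft F (AdjoinRoot.mk h g))
  rw [hsurj, finrank_top, finrank_adjoinRoot D hD0, hker] at r1
  omega

theorem natDegree_gcd_pow (p q : F[X]) (hp : p.Monic) (hpi : Irreducible p) (hq : q.Monic) (hqi : Irreducible q) (j k : ℕ)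
    [Decidable (p = q)] :
    gdeg (q ^ j) (p ^ k) = if p = q then p.natDegree * min j k else 0 := by
  classical
  show (EuclideanDomain.gcd (q ^ j) (p ^ k)).natDegree = _
  split_ifs with h
  · subst h
    have h1 : Associated (EuclideanDomain.gcd (p ^ j) (p ^ k)) (p ^ min j k) := by
      apply associated_of_dvd_dvd
      · rcases le_total j k with h | h
        · rw [min_eq_left h]; exact EuclideanDomain.gcd_dvd_left _ _
        · rw [min_eq_right h]; exact EuclideanDomain.gcd_dvd_right _ _
      · exact EuclideanDomain.dvd_gcd (pow_dvd_pow _ (min_le_left _ _)) (pow_dvd_pow _ (min_le_right _ _))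
    rw [natDegree_eq_of_degree_eq (degree_eq_degree_of_associated h1), hp.natDegree_pow, mul_comm]
  · have hcop : IsCoprime q p := by
      rw [hqi.coprime_iff_not_dvd]
      intro h1
      apply h
      have h2 : Associated q p := (hqi.associated_of_dvd hpi h1)
      exact (eq_of_monic_of_associated hq hp h2).symm
    have h1 : IsCoprime (q ^ j) (p ^ k) := hcop.pow
    have h2 : IsUnit (EuclideanDomain.gcd (q ^ j) (p ^ k)) := EuclideanDomain.gcd_isUnit_iff.mpr h1
    exact natDegree_eq_zero_of_isUnit h2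

/-! ### Types -/

/-- an allowed elementary divisor -/
def Good (d : F[X] × ℕ) : Prop := d.1.Monic ∧ Irreducible d.1 ∧ 0 < d.2

/-- the cyclic module with elementary divisor `d` -/
abbrev Cyc (d : F[X] × ℕ) : Type u := AdjoinRoot (d.1 ^ d.2)

theorem Good.ne_zero {d : F[X] × ℕ} (h : Good d) : d.1 ^ d.2 ≠ 0 := pow_ne_zero _ h.2.1.ne_zero

theorem Good.finite {d : F[X] × ℕ} (h : Good d) : FiniteDimensional F (Cyc d) := finite_adjoinRoot _ h.ne_zero

variable {V : Type v} [AddCommGroup V] [Module F V] {W : Type w} [AddCommGroup W] [Module F W]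

def HasType (f : Module.End F V) (s : Multiset (F[X] × ℕ)) : Prop :=
  ∃ (n : ℕ) (d : Fin n → F[X] × ℕ), (∀ i, Good (d i)) ∧ Finset.univ.val.map d = s ∧
    ∃ e : V ≃ₗ[F] (∀ i, Cyc (d i)), ∀ x i, e (f x) i = AdjoinRoot.root _ * e x i

theorem HasType.mk' {f : Module.End F V} {ι : Type*} [Fintype ι] (d : ι → F[X] × ℕ) (hd : ∀ i, Good (d i))
    (e : V ≃ₗ[F] (∀ i, Cyc (d i))) (he : ∀ x i, e (f x) i = AdjoinRoot.root _ * e x i) :
    HasType f (Finset.univ.val.map d) := by
  classical
  let σ := Fintype.equivFin ι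
  refine ⟨Fintype.card ι, fun j => d (σ.symm j), fun j => hd _, ?_,
    e.trans (LinearEquiv.piCongrLeft' F (fun i => Cyc (d i)) σ), ?_⟩
  · have h1 : (fun j => d (σ.symm j)) = d ∘ σ.symm := rfl
    rw [h1, ← Multiset.map_map]
    congr 1
    have := congrArg Finset.val (Finset.map_univ_equiv σ.symm)
    rw [Finset.map_val] at this
    exact this
  · intro x j
    exact he x (σ.symm j)

theorem exists_hasType [FiniteDimensional F V] (f : Module.End F V) : ∃ s, HasType f s := by
  obtain ⟨ι, _, p, k, hm, hi, hk, e, he⟩ := FXMod.exists_decomp f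
  exact ⟨_, HasType.mk' (fun i => (p i, k i)) (fun i => ⟨hm i, hi i, hk i⟩) e he⟩

theorem HasType.good {f : Module.End F V} {s : Multiset (F[X] × ℕ)} (h : HasType f s) : ∀ d ∈ s, Good d := by
  obtain ⟨n, d, hd, rfl, -⟩ := h
  intro x hx
  rw [Multiset.mem_map] at hx
  obtain ⟨i, -, rfl⟩ := hx
  exact hd i

theorem HasType.ofEquiv {f : Module.End F V} {g : Module.End F W} {s : Multiset (F[X] × ℕ)} (h : HasType f s)
    (e : W ≃ₗ[F] V) (he : ∀ x, e (g x) = f (e x)) : HasType g s := by
  obtain ⟨n, d, hd, hs, e', he'⟩ := h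
  refine ⟨n, d, hd, hs, e.trans e', ?_⟩
  intro x i
  rw [LinearEquiv.trans_apply, he, he', LinearEquiv.trans_apply]

theorem HasType.equiv {f : Module.End F V} {g : Module.End F W} {s : Multiset (F[X] × ℕ)} (h : HasType f s)
    (h' : HasType g s) : ∃ e : V ≃ₗ[F] W, ∀ x, e (f x) = g (e x) := by
  obtain ⟨n, d, hd, hs, e, he⟩ := h
  obtain ⟨n', d', hd', hs', e', he'⟩ := h'
  obtain ⟨σ, hσ⟩ := exists_equiv_of_map_eq d d' (hs.trans hs'.symm)
  have hdd : d = fun i => d' (σ i) := funext fun i => (hσ i).symm
  subst hdd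
  let P : (∀ j, Cyc (d' j)) ≃ₗ[F] (∀ i, Cyc (d' (σ i))) := 
    { toFun := fun x i => x (σ i)
      invFun := fun y j => cast (by rw [σ.apply_symm_apply]) (y (σ.symm j))
      map_add' := fun _ _ => rfl
      map_smul' := fun _ _ => rfl
      left_inv := fun x => by
        funext j
        have : ∀ (j' : Fin n') (h : j' = j) (h2 : Cyc (d' j') = Cyc (d' j)), cast h2 (x j') = x j := by
          rintro j' rfl _; rfl
        exact this _ (σ.apply_symm_apply j) _
      right_inv := fun y => by
        funext i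
        have : ∀ (i' : Fin n) (h : i' = i) (h2 : Cyc (d' (σ i')) = Cyc (d' (σ i))), cast h2 (y i') = y i := by
          rintro i' rfl _; rfl
        exact this _ (σ.symm_apply_apply i) _ }
  have hP : ∀ x i, P x i = x (σ i) := fun _ _ => rfl
  refine ⟨e.trans (P.symm.trans e'.symm), ?_⟩
  intro x
  show e'.symm (P.symm (e (f x))) = g (e'.symm (P.symm (e x)))
  rw [LinearEquiv.symm_apply_eq, LinearEquiv.symm_apply_eq]
  funext i
  rw [hP, he', LinearEquiv.apply_symm_apply, he]
  congr 1
  have := congrFun (P.apply_symm_apply (e x)) i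
  rw [hP] at this
  exact this.symm

theorem transport_aeval {f : Module.End F V} {ι : Type*} {d : ι → F[X] × ℕ} (e : V ≃ₗ[F] (∀ i, Cyc (d i)))
    (he : ∀ x i, e (f x) i = AdjoinRoot.root _ * e x i) (g : F[X]) (x : V) (i : ι) :
    e (aeval f g x) i = AdjoinRoot.mk _ g * e x i := by
  induction g using Polynomial.induction_on' generalizing x with
  | add p q hp hq =>
    rw [map_add, LinearMap.add_apply, map_add, Pi.add_apply, hp, hq, map_add, add_mul]
  | monomial n a =>
    rw [aeval_monomial, Module.End.mul_apply]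
    have hpow : ∀ (n : ℕ) (x : V), e ((f ^ n) x) i = AdjoinRoot.root _ ^ n * e x i := by
      intro n
      induction n with
      | zero => intro x; rw [pow_zero, pow_zero, one_mul]; rfl
      | succ n ih => intro x; rw [pow_succ, Module.End.mul_apply, ih, he, pow_succ, mul_assoc]
    rw [Module.algebraMap_end_apply, map_smul, Pi.smul_apply, hpow, ← C_mul_X_pow_eq_monomial, map_mul, map_pow,
      AdjoinRoot.mk_X, AdjoinRoot.mk_C, Algebra.smul_def, mul_assoc]
    rfl

theorem HasType.finiteDimensional {f : Module.End F V} {s : Multiset (F[X] × ℕ)} (h : HasType f s) :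
    FiniteDimensional F V := by
  obtain ⟨n, d, hd, rfl, e, he⟩ := h
  have := fun i => (hd i).finite
  exact Module.Finite.equiv e.symm

theorem HasType.finrank_ker {f : Module.End F V} {s : Multiset (F[X] × ℕ)} (h : HasType f s) (g : F[X]) :
    finrank F (LinearMap.ker (aeval f g)) = (s.map fun d => gdeg g (d.1 ^ d.2)).sum := by
  obtain ⟨n, d, hd, rfl, e, he⟩ := h
  have := fun i => (hd i).finite
  have ht := transport_aeval e he g
  let L : ∀ i, Cyc (d i) →ₗ[F] Cyc (d i) := fun i => LinearMap.mulLeft F (AdjoinRoot.mk _ g)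
  let E : LinearMap.ker (aeval f g) ≃ₗ[F] (∀ i, LinearMap.ker (L i)) := 
    { toFun := fun x i => ⟨e x i, by
        rw [LinearMap.mem_ker, LinearMap.mulLeft_apply, ← ht, LinearMap.mem_ker.mp x.2, map_zero]; rfl⟩
      invFun := fun y => ⟨e.symm (fun i => (y i : Cyc (d i))), by
        rw [LinearMap.mem_ker]
        apply e.injective
        funext i
        rw [ht, LinearEquiv.apply_symm_apply, map_zero]
        exact LinearMap.mem_ker.mp (y i).2⟩
      map_add' := fun x y => by
        funext i
        apply Subtype.ext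
        show e ((x : V) + y) i = e x i + e y i
        rw [map_add]; rfl
      map_smul' := fun c x => by
        funext i
        apply Subtype.ext
        show e (c • (x : V)) i = c • e x i
        rw [map_smul]; rfl
      left_inv := fun x => by
        apply Subtype.ext
        show e.symm (fun i => e x i) = x
        exact e.symm_apply_apply _
      right_inv := fun y => by
        funext i
        apply Subtype.ext
        show e (e.symm (fun i => (y i : Cyc (d i)))) i = y i
        rw [LinearEquiv.apply_symm_apply] }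
  rw [E.finrank_eq, Module.finrank_pi_fintype, Multiset.map_map]
  show ∑ i, finrank F (LinearMap.ker (L i)) = ∑ i, _
  apply Finset.sum_congr rfl
  intro i _
  exact finrank_ker_mul g _ (hd i).ne_zero

theorem HasType.finrank {f : Module.End F V} {s : Multiset (F[X] × ℕ)} (h : HasType f s) :
    Module.finrank F V = (s.map fun d => d.1.natDegree * d.2).sum := by
  have h1 := h.finrank_ker 0
  rw [map_zero, LinearMap.ker_zero, finrank_top] at h1
  rw [h1]
  congr 1
  apply Multiset.map_congr rfl
  intro d hd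
  classical
  show (EuclideanDomain.gcd 0 (d.1 ^ d.2)).natDegree = _
  rw [EuclideanDomain.gcd_zero_left, (h.good d hd).1.natDegree_pow, mul_comm]

theorem count_formula [DecidableEq (F[X] × ℕ)] (s : Multiset (F[X] × ℕ)) (hs : ∀ d ∈ s, Good d) (q : F[X]) (hq : q.Monic) (hqi : Irreducible q) (k : ℕ) :
    2 * (s.map fun d => gdeg (q ^ (k + 1)) (d.1 ^ d.2)).sum = (s.map fun d => gdeg (q ^ k) (d.1 ^ d.2)).sum +
      (s.map fun d => gdeg (q ^ (k + 2)) (d.1 ^ d.2)).sum + q.natDegree * s.count (q, k + 1) := by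
  classical
  induction s using Multiset.induction with
  | empty => simp
  | cons d s ih =>
    have ih' := ih (fun x hx => hs x (Multiset.mem_cons_of_mem hx))
    have hd := hs d (Multiset.mem_cons_self d s)
    rw [Multiset.map_cons, Multiset.sum_cons, Multiset.map_cons, Multiset.sum_cons, Multiset.map_cons, Multiset.sum_cons,
      Multiset.count_cons, mul_add, ih', natDegree_gcd_pow d.1 q hd.1 hd.2.1 hq hqi, natDegree_gcd_pow d.1 q hd.1 hd.2.1 hq hqi,
      natDegree_gcd_pow d.1 q hd.1 hd.2.1 hq hqi]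
    by_cases h1 : d.1 = q
    · rw [if_pos h1, if_pos h1, if_pos h1, h1]
      by_cases h2 : d.2 = k + 1
      · rw [if_pos (by rw [← h1, ← h2])]
        have e1 : min (k + 1) d.2 = k + 1 := by omega
        have e2 : min k d.2 = k := by omega
        have e3 : min (k + 2) d.2 = k + 1 := by omega
        rw [e1, e2, e3]
        ring
      · rw [if_neg (by intro h3; apply h2; rw [← h3])]
        rcases lt_or_gt_of_ne h2 with h4 | h4
        · have e1 : min (k + 1) d.2 = d.2 := by omega
          have e2 : min k d.2 = d.2 := by omega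
          have e3 : min (k + 2) d.2 = d.2 := by omega
          rw [e1, e2, e3]
          ring
        · have e1 : min (k + 1) d.2 = k + 1 := by omega
          have e2 : min k d.2 = k := by omega
          have e3 : min (k + 2) d.2 = k + 2 := by omega
          rw [e1, e2, e3]
          ring
    · rw [if_neg h1, if_neg h1, if_neg h1, if_neg (by intro h3; apply h1; rw [← h3])]
      ring

/-- a multiset of elementary divisors is determined by the dimensions of the kernels -/
theorem eq_of_gdeg (s s' : Multiset (F[X] × ℕ)) (hs : ∀ d ∈ s, Good d) (hs' : ∀ d ∈ s', Good d)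
    (h : ∀ (q : F[X]) (k : ℕ), q.Monic → Irreducible q → (s.map fun d => gdeg (q ^ k) (d.1 ^ d.2)).sum = (s'.map fun d => gdeg (q ^ k) (d.1 ^ d.2)).sum) :
    s = s' := by
  classical
  ext ⟨q, k⟩
  by_cases hg : Good (q, k)
  · obtain ⟨hq, hqi, hk⟩ := hg
    obtain ⟨k', rfl⟩ : ∃ k', k = k' + 1 := ⟨k - 1, by simp only at hk; omega⟩
    have h1 := count_formula s hs q hq hqi k'
    have h2 := count_formula s' hs' q hq hqi k'
    rw [h q _ hq hqi, h q _ hq hqi, h q _ hq hqi] at h1
    have h3 : 0 < q.natDegree := hqi.natDegree_pos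
    have h4 : q.natDegree * s.count (q, k' + 1) = q.natDegree * s'.count (q, k' + 1) := by omega
    exact Nat.eq_of_mul_eq_mul_left h3 h4
  · rw [Multiset.count_eq_zero.mpr (fun h => hg (hs _ h)), Multiset.count_eq_zero.mpr (fun h => hg (hs' _ h))]

theorem HasType.unique_of_ker {f : Module.End F V} {g : Module.End F W} {s s' : Multiset (F[X] × ℕ)} (h : HasType f s) (h' : HasType g s')
    (hk : ∀ (q : F[X]) (k : ℕ), q.Monic → Irreducible q → Module.finrank F (LinearMap.ker (aeval f (q ^ k))) = Module.finrank F (LinearMap.ker (aeval g (q ^ k)))) :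
    s = s' := by
  apply eq_of_gdeg s s' h.good h'.good
  intro q k hq hqi
  rw [← h.finrank_ker, ← h'.finrank_ker, hk q k hq hqi]

theorem HasType.unique {f : Module.End F V} {s s' : Multiset (F[X] × ℕ)} (h : HasType f s) (h' : HasType f s') : s = s' :=
  h.unique_of_ker h' fun _ _ _ _ => rfl

/-- similarity criterion -/
theorem exists_equiv_of_ker [FiniteDimensional F V] [FiniteDimensional F W] (f : Module.End F V) (g : Module.End F W)
    (hk : ∀ (q : F[X]) (k : ℕ), q.Monic → Irreducible q → Module.finrank F (LinearMap.ker (aeval f (q ^ k))) = Module.finrank F (LinearMap.ker (aeval g (q ^ k)))) :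
    ∃ e : V ≃ₗ[F] W, ∀ x, e (f x) = g (e x) := by
  obtain ⟨s, hs⟩ := exists_hasType f
  obtain ⟨s', hs'⟩ := exists_hasType g
  obtain rfl := hs.unique_of_ker hs' hk
  exact hs.equiv hs'

theorem HasType.aeval_eq_zero_iff {f : Module.End F V} {s : Multiset (F[X] × ℕ)} (h : HasType f s) (g : F[X]) :
    aeval f g = 0 ↔ ∀ d ∈ s, d.1 ^ d.2 ∣ g := by
  obtain ⟨n, d, hd, rfl, e, he⟩ := h
  have ht := transport_aeval e he g
  constructor
  · intro h0 x hx
    rw [Multiset.mem_map] at hx
    obtain ⟨i, -, rfl⟩ := hx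
    have h1 := ht (e.symm (fun j => 1)) i
    rw [h0, LinearMap.zero_apply, map_zero, LinearEquiv.apply_symm_apply, mul_one] at h1
    exact AdjoinRoot.mk_eq_zero.mp h1.symm
  · intro h0
    ext x
    rw [LinearMap.zero_apply]
    apply e.injective
    funext i
    rw [ht, AdjoinRoot.mk_eq_zero.mpr (h0 (d i) (Multiset.mem_map.mpr ⟨i, Finset.mem_univ_val i, rfl⟩)), zero_mul, map_zero]
    rfl

/-! ### Constructions -/

theorem HasType.prod {f : Module.End F V} {g : Module.End F W} {s t : Multiset (F[X] × ℕ)} (h : HasType f s) (h' : HasType g t) :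
    HasType (LinearMap.prodMap f g) (s + t) := by
  obtain ⟨n, d, hd, rfl, e, he⟩ := h
  obtain ⟨m, d', hd', rfl, e', he'⟩ := h'
  have h1 := HasType.mk' (f := LinearMap.prodMap f g) (ι := Fin n ⊕ Fin m) (Sum.elim d d') (by rintro (i | i); exacts [hd i, hd' i])
    ((e.prodCongr e').trans (LinearEquiv.sumPiEquivProdPi F (Fin n) (Fin m) (fun i => Cyc (Sum.elim d d' i))).symm) (by
      rintro ⟨x, y⟩ (i | i)
      · exact he x i
      · exact he' y i)
  rwa [show (Finset.univ : Finset (Fin n ⊕ Fin m)).val.map (Sum.elim d d') = Finset.univ.val.map d + Finset.univ.val.map d' by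
    have h2 : (Finset.univ : Finset (Fin n ⊕ Fin m)).val = (Finset.univ : Finset (Fin n)).val.map Sum.inl + (Finset.univ : Finset (Fin m)).val.map Sum.inr := rfl
    rw [h2, Multiset.map_add, Multiset.map_map, Multiset.map_map]
    rfl] at h1

theorem hasType_cyc (d : F[X] × ℕ) (hd : Good d) : HasType (LinearMap.mulLeft F (AdjoinRoot.root (d.1 ^ d.2))) {d} := by
  have h1 := HasType.mk' (f := LinearMap.mulLeft F (AdjoinRoot.root (d.1 ^ d.2))) (ι := Fin 1) (fun _ => d) (fun _ => hd)
    ((LinearEquiv.funUnique (Fin 1) F (Cyc d)).symm) (by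
      intro x i
      rfl)
  simpa using h1

theorem hasType_zero [Subsingleton V] (f : Module.End F V) : HasType f 0 := by
  have h1 := HasType.mk' (f := f) (ι := Fin 0) (fun i => i.elim0) (fun i => i.elim0)
    { toFun := fun _ i => i.elim0
      invFun := fun _ => 0
      map_add' := fun _ _ => by funext i; exact i.elim0
      map_smul' := fun _ _ => by funext i; exact i.elim0
      left_inv := fun x => Subsingleton.elim _ _
      right_inv := fun y => by funext i; exact i.elim0 } (fun _ i => i.elim0)
  simpa using h1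

/-- multiplication by the root on a product of cyclic modules -/
noncomputable def piRoot {ι : Type*} (d : ι → F[X] × ℕ) : Module.End F (∀ i, Cyc (d i)) where
  toFun x i := AdjoinRoot.root _ * x i
  map_add' x y := by funext i; exact mul_add _ _ _
  map_smul' c x := by funext i; exact mul_smul_comm c (AdjoinRoot.root ((d i).1 ^ (d i).2)) (x i)

theorem hasType_piRoot {ι : Type*} [Fintype ι] (d : ι → F[X] × ℕ) (hd : ∀ i, Good (d i)) :
    HasType (piRoot d) (Finset.univ.val.map d) :=
  HasType.mk' d hd (LinearEquiv.refl F _) fun _ _ => rfl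

theorem exists_fin_map {α : Type*} (s : Multiset α) : ∃ (n : ℕ) (d : Fin n → α), Finset.univ.val.map d = s := by
  induction s using Quotient.inductionOn with
  | h l =>
    refine ⟨l.length, l.get, ?_⟩
    show Multiset.map l.get (Finset.univ.val) = (l : Multiset α)
    rw [Fin.univ_val_map, List.ofFn_get]

/-- every good multiset is realised -/
theorem exists_of_type (s : Multiset (F[X] × ℕ)) (hs : ∀ d ∈ s, Good d) (n : ℕ) (hn : (s.map fun d => d.1.natDegree * d.2).sum = n) :
    ∃ (f : Module.End F (Fin n → F)), HasType f s := by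
  obtain ⟨m, d, rfl⟩ := exists_fin_map s
  have hd : ∀ i, Good (d i) := fun i => hs _ (Multiset.mem_map.mpr ⟨i, Finset.mem_univ_val i, rfl⟩)
  have h1 := hasType_piRoot d hd
  have h2 := h1.finrank
  have := h1.finiteDimensional
  rw [hn] at h2
  let e : (∀ i, Cyc (d i)) ≃ₗ[F] (Fin n → F) := LinearEquiv.ofFinrankEq _ _ (by rw [h2, Module.finrank_fintype_fun_eq_card, Fintype.card_fin])
  refine ⟨e.toLinearMap ∘ₗ piRoot d ∘ₗ e.symm.toLinearMap, h1.ofEquiv e.symm ?_⟩
  intro x
  show e.symm (e (piRoot d (e.symm x))) = _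
  rw [LinearEquiv.symm_apply_apply]

/-- a cyclic vector determines the type -/
theorem hasType_of_cyclic [FiniteDimensional F V] (f : Module.End F V) (d : F[X] × ℕ) (hd : Good d) (hdim : Module.finrank F V = d.1.natDegree * d.2)
    (h0 : aeval f (d.1 ^ d.2) = 0) (v : V) (hv : ∀ x, ∃ g : F[X], aeval f g v = x) : HasType f {d} := by
  have := hd.finite
  let T : F[X] →ₗ[F] V := (LinearMap.applyₗ v) ∘ₗ (aeval f).toLinearMap
  have hT : ∀ g, T g = aeval f g v := fun g => rfl
  have hker : (Ideal.span {d.1 ^ d.2} : Ideal F[X]).restrictScalars F ≤ LinearMap.ker T := by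
    intro g hg
    rw [Submodule.restrictScalars_mem, Ideal.mem_span_singleton] at hg
    obtain ⟨c, rfl⟩ := hg
    rw [LinearMap.mem_ker, hT, map_mul, h0, zero_mul, LinearMap.zero_apply]
  let T' : Cyc d →ₗ[F] V := ((Ideal.span {d.1 ^ d.2} : Ideal F[X]).restrictScalars F).liftQ T hker
  have hT' : ∀ g, T' (AdjoinRoot.mk _ g) = aeval f g v := fun g => rfl
  have hsurj : Function.Surjective T' := by
    intro x
    obtain ⟨g, hg⟩ := hv x
    exact ⟨AdjoinRoot.mk _ g, by rw [hT', hg]⟩
  have hinj : Function.Injective T' := by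
    rw [LinearMap.injective_iff_surjective_of_finrank_eq_finrank]
    · exact hsurj
    · rw [hdim, finrank_adjoinRoot _ hd.ne_zero, hd.1.natDegree_pow, mul_comm]
  let e : Cyc d ≃ₗ[F] V := LinearEquiv.ofBijective T' ⟨hinj, hsurj⟩
  refine (hasType_cyc d hd).ofEquiv e.symm ?_
  intro x
  rw [LinearEquiv.symm_apply_eq, LinearMap.mulLeft_apply]
  obtain ⟨y, rfl⟩ := e.surjective x
  rw [LinearEquiv.symm_apply_apply]
  obtain ⟨g, rfl⟩ := AdjoinRoot.mk_surjective y
  show f (T' (AdjoinRoot.mk _ g)) = T' (AdjoinRoot.root _ * AdjoinRoot.mk _ g)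
  rw [← AdjoinRoot.mk_X, ← map_mul, hT', hT', map_mul, aeval_X]
  rfl

end Cfsg.Agent.Lib.FXType
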