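import Mathlib
import Cfsg.Agent.Lib.JordanNil

/-!
# Nilpotent elements of an algebra: commutator identities (helper78)

Feit's method: `X = log x` lies in the second but not in the third layer of `End V`.
-/

set_option autoImplicit false
set_option linter.all false

namespace Cfsg.Agent.Lib.FeitA

open Finset Module Cfsg.Agent.Lib.JordanNil

section ring

variable {A : Type*} [Ring A]

/-- inner derivation -/
def adz (z B : A) : A := z * B - B * z

theorem adz_mul_right {z B y : A} (h : z * y = y * z) : adz z (B * y) = adz z B * y := by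
  rw [adz, adz, sub_mul, ← mul_assoc, mul_assoc B y z, ← h, ← mul_assoc]

theorem sumT (m : ℕ → A) (n : ℕ) :
    ∑ a ∈ range (n + 1), ((a : ℤ) + 1) • (m (a + 3) - 3 • m (a + 2) + 3 • m (a + 1) - m a) =
      ((n : ℤ) + 1) • m (n + 3) - (2 * (n : ℤ) + 3) • m (n + 2) + ((n : ℤ) + 2) • m (n + 1) + m 1 - m 0 := by
  induction n with
  | zero => rw [zero_add, range_one, sum_singleton]; simp only [Nat.cast_zero, zero_add]; module
  | succ n ih =>
    rw [sum_range_succ, ih]
    push_cast
    module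

theorem sumS (m : ℕ → A) (n : ℕ) :
    ∑ a ∈ range (n + 1), (((a : ℤ) + 1) * ((n : ℤ) + 1 - a)) • (m (a + 3) - 3 • m (a + 2) + 3 • m (a + 1) - m a) =
      ((n : ℤ) + 1) • (m (n + 3) - m 0) - ((n : ℤ) + 3) • (m (n + 2) - m 1) := by
  induction n with
  | zero => rw [zero_add, range_one, sum_singleton]; simp only [Nat.cast_zero, zero_add]; module
  | succ n ih =>
    have h1 : ∑ a ∈ range (n + 1 + 1), (((a : ℤ) + 1) * (((n + 1 : ℕ) : ℤ) + 1 - a)) •
          (m (a + 3) - 3 • m (a + 2) + 3 • m (a + 1) - m a) =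
        (∑ a ∈ range (n + 1), (((a : ℤ) + 1) * ((n : ℤ) + 1 - a)) •
          (m (a + 3) - 3 • m (a + 2) + 3 • m (a + 1) - m a)) +
        ∑ a ∈ range (n + 1 + 1), ((a : ℤ) + 1) • (m (a + 3) - 3 • m (a + 2) + 3 • m (a + 1) - m a) := by
      rw [sum_range_succ, sum_range_succ (fun a => ((a : ℤ) + 1) • _), ← add_assoc, ← sum_add_distrib]
      congr 1
      · refine sum_congr rfl fun a _ => ?_
        push_cast
        module
      · push_cast
        module
    rw [h1, ih, sumT]
    push_cast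
    module

/-- the functional killing the image of `ad z ^ 3` -/
def Q (z : A) (n : ℕ) (B : A) : A :=
  ∑ a ∈ range (n + 1), (((a : ℤ) + 1) * ((n : ℤ) + 1 - a)) • (z ^ a * B * z ^ (n - a))

theorem Q_ad (z : A) (n : ℕ) (hz : z ^ (n + 2) = 0) (B : A) : Q z n (adz z (adz z (adz z B))) = 0 := by
  set m : ℕ → A := fun i => z ^ i * B * z ^ (n + 3 - i) with hm
  have h1 : ∀ a ∈ range (n + 1), z ^ a * adz z (adz z (adz z B)) * z ^ (n - a) =
      m (a + 3) - 3 • m (a + 2) + 3 • m (a + 1) - m a := by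
    intro a ha
    have ha' : a ≤ n := by rw [mem_range] at ha; omega
    have e3 : n + 3 - (a + 3) = n - a := by omega
    have e2 : n + 3 - (a + 2) = (n - a) + 1 := by omega
    have e1 : n + 3 - (a + 1) = (n - a) + 2 := by omega
    have e0 : n + 3 - a = (n - a) + 3 := by omega
    simp only [hm, e3, e2, e1, e0, adz]
    have p1 : ∀ k, z ^ (k + 1) = z ^ k * z := fun k => pow_succ z k
    have q1 : ∀ k, z ^ (k + 1) = z * z ^ k := fun k => pow_succ' z k
    have f3 : z ^ (a + 3) = z ^ a * z * z * z := by rw [pow_succ, pow_succ, pow_succ]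
    have f2 : z ^ (a + 2) = z ^ a * z * z := by rw [pow_succ, pow_succ]
    have f1 : z ^ (a + 1) = z ^ a * z := by rw [pow_succ]
    have g3 : z ^ (n - a + 3) = z * z * z * z ^ (n - a) := by
      rw [pow_succ', pow_succ', pow_succ']; noncomm_ring
    have g2 : z ^ (n - a + 2) = z * z * z ^ (n - a) := by
      rw [pow_succ', pow_succ']; noncomm_ring
    have g1 : z ^ (n - a + 1) = z * z ^ (n - a) := by rw [pow_succ']
    rw [f3, f2, f1, g3, g2, g1]
    noncomm_ring
  have h2 : m 0 = 0 := by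
    simp only [hm, Nat.sub_zero]
    rw [pow_succ z (n + 2), hz, zero_mul, mul_zero]
  have h3 : m 1 = 0 := by
    simp only [hm]
    have : n + 3 - 1 = n + 2 := by omega
    rw [this, hz, mul_zero]
  have h4 : m (n + 2) = 0 := by simp only [hm]; rw [hz, zero_mul, zero_mul]
  have h5 : m (n + 3) = 0 := by
    simp only [hm]
    rw [pow_succ z (n + 2), hz, zero_mul, zero_mul, zero_mul]
  rw [Q, sum_congr rfl fun a ha => by rw [h1 a ha], sumS, h2, h3, h4, h5]
  simp

theorem Q_val (z : A) (n : ℕ) (hz : z ^ (n + 2) = 0) (r : A) (hr : z * r = r * z) :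
    Q z n (z + z * z * r) = (∑ a ∈ range (n + 1), (((a : ℤ) + 1) * ((n : ℤ) + 1 - a))) • z ^ (n + 1) := by
  rw [Q, sum_smul]
  refine sum_congr rfl fun a ha => ?_
  have ha' : a ≤ n := by rw [mem_range] at ha; omega
  congr 1
  have hrp : r * z ^ (n - a) = z ^ (n - a) * r := ((show Commute r z from hr.symm).pow_right _).eq
  have h1 : z ^ a * (z * z * r) * z ^ (n - a) = z ^ (n + 2) * r := by
    rw [mul_assoc (z ^ a), mul_assoc (z * z), hrp, ← mul_assoc, ← mul_assoc, ← mul_assoc]
    rw [← pow_succ, ← pow_succ, ← pow_add]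
    congr 2
    omega
  rw [mul_add, add_mul, h1, hz, zero_mul, add_zero, ← pow_succ, ← pow_add]
  congr 1
  omega

theorem sum_val (n : ℕ) : 6 * (∑ a ∈ range (n + 1), (((a : ℤ) + 1) * ((n : ℤ) + 1 - a))) =
    (n + 1) * (n + 2) * (n + 3) := by
  have hT : ∀ n : ℕ, 2 * (∑ a ∈ range (n + 1), ((a : ℤ) + 1)) = (n + 1) * (n + 2) := by
    intro n
    induction n with
    | zero => simp
    | succ n ih => rw [sum_range_succ, mul_add, ih]; push_cast; ring
  induction n with
  | zero => simp
  | succ n ih =>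
    have h1 : ∑ a ∈ range (n + 1 + 1), (((a : ℤ) + 1) * (((n + 1 : ℕ) : ℤ) + 1 - a)) =
        (∑ a ∈ range (n + 1), (((a : ℤ) + 1) * ((n : ℤ) + 1 - a))) + ∑ a ∈ range (n + 1 + 1), ((a : ℤ) + 1) := by
      rw [sum_range_succ, sum_range_succ (fun a : ℕ => (a : ℤ) + 1), ← add_assoc, ← sum_add_distrib]
      congr 1
      · refine sum_congr rfl fun a _ => ?_
        push_cast
        ring
      · push_cast
        ring
    have h2 := hT (n + 1)
    rw [h1, mul_add, ih]
    push_cast at h2 ⊢
    linarith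

end ring

/-- a solution of `[N, [N, B]] = N` -/
theorem exists_B {F V : Type*} [Field F] [AddCommGroup V] [Module F V] [FiniteDimensional F V] (h2 : (2 : F) ≠ 0)
    (N : Module.End F V) (hN : IsNilpotent N) : ∃ B : Module.End F V, adz N (adz N B) = N := by
  classical
  obtain ⟨d, k, b, hb⟩ := exists_JB N hN
  let c : Fin d → ℕ → F := fun i a => -(1 / 2) * (a : F) * ((k i : F) - a)
  let B : Module.End F V := b.constr F fun x : Σ i : Fin d, Fin (k i) =>
    c x.1 x.2 • (if h : 0 < (x.2 : ℕ) then b ⟨x.1, ⟨(x.2 : ℕ) - 1, by have := x.2.2; omega⟩⟩ else 0)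
  have hB : ∀ (i : Fin d) (a : Fin (k i)), B (b ⟨i, a⟩) =
      c i a • (if h : 0 < (a : ℕ) then b ⟨i, ⟨(a : ℕ) - 1, by have := a.2; omega⟩⟩ else 0) := by
    intro i a
    exact b.constr_basis F _ _
  have hD : ∀ (i : Fin d) (a : Fin (k i)), adz N B (b ⟨i, a⟩) = (c i a - c i (a + 1)) • b ⟨i, a⟩ := by
    intro i a
    rw [adz, LinearMap.sub_apply, Module.End.mul_apply, Module.End.mul_apply, hB, hb i a, sub_smul]
    congr 1
    · rw [map_smul]
      by_cases h : 0 < (a : ℕ)
      · rw [dif_pos h, hb]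
        have h1 : ((⟨(a : ℕ) - 1, by have := a.2; omega⟩ : Fin (k i)) : ℕ) + 1 < k i := by
          have := a.2
          show (a : ℕ) - 1 + 1 < k i
          omega
        rw [dif_pos h1]
        congr 3
        apply Fin.ext
        show (a : ℕ) - 1 + 1 = a
        omega
      · rw [dif_neg h, map_zero, smul_zero]
        have : (a : ℕ) = 0 := by omega
        simp only [c, this]
        simp
    · by_cases h : (a : ℕ) + 1 < k i
      · rw [dif_pos h, hB, dif_pos (Nat.succ_pos _)]
        rfl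
      · rw [dif_neg h, map_zero]
        have h3 : (a : ℕ) + 1 = k i := by have := a.2; omega
        have h4 : c i (a + 1) = 0 := by
          simp only [c]
          rw [h3, sub_self, mul_zero]
        rw [h4, zero_smul]
  refine ⟨B, b.ext fun x => ?_⟩
  obtain ⟨i, a⟩ := x
  rw [adz, LinearMap.sub_apply, Module.End.mul_apply, Module.End.mul_apply, hD, map_smul, hb i a]
  by_cases h : (a : ℕ) + 1 < k i
  · rw [dif_pos h, hD, ← sub_smul]
    have h5 : c i a - c i (a + 1) - (c i ((⟨(a : ℕ) + 1, h⟩ : Fin (k i)) : ℕ) -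
        c i (((⟨(a : ℕ) + 1, h⟩ : Fin (k i)) : ℕ) + 1)) = 1 := by
      simp only [c]
      push_cast
      field_simp
      ring
    rw [h5, one_smul]
  · rw [dif_neg h, map_zero, smul_zero, sub_zero]

end Cfsg.Agent.Lib.FeitA
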