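import Mathlib
import Cfsg.Agent.Lib.FeitA

/-!
# The truncated logarithm `- ∑ k⁻¹ x ^ k` in characteristic `p` (helper78)
-/

set_option autoImplicit false
set_option linter.all false

namespace Cfsg.Agent.Lib.FeitB

open Finset Module Polynomial Cfsg.Agent.Lib.FeitA

variable {p : ℕ} [hp : Fact p.Prime] {F : Type*} [Field F] [CharP F p]

/-- the prime field -/
noncomputable def pc (p : ℕ) [Fact p.Prime] (F : Type*) [Field F] [CharP F p] : ZMod p →+* F :=
  ZMod.castHom (dvd_refl p) F

theorem pc_natCast (n : ℕ) : pc p F (n : ZMod p) = (n : F) := map_natCast _ n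

theorem pc_ne_zero {m : ZMod p} (hm : m ≠ 0) : pc p F m ≠ 0 := by
  intro h
  exact hm ((pc p F).injective (by rw [h, map_zero]))

variable {A : Type*} [Ring A] [Algebra F A]

variable (p F) in
/-- truncated logarithm -/
noncomputable def lg (x : A) : A := - ∑ k : ZMod p, (pc p F k⁻¹) • x ^ k.val

theorem pow_val_mul {M : Type*} [Monoid M] {x : M} (hx : x ^ p = 1) (a b : ZMod p) :
    x ^ (a * b).val = (x ^ a.val) ^ b.val := by
  rw [← pow_mul]
  rw [ZMod.val_mul]
  conv_rhs => rw [← Nat.mod_add_div (a.val * b.val) p, pow_add, pow_mul, hx, one_pow, mul_one]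

theorem lg_pow {x : A} (hx : x ^ p = 1) {m : ZMod p} (hm : m ≠ 0) : lg p F (x ^ m.val) = pc p F m • lg p F x := by
  rw [lg, lg, smul_neg, smul_sum]
  congr 1
  refine Fintype.sum_equiv (Equiv.mulLeft₀ m hm) _ _ fun k => ?_
  rw [Equiv.mulLeft₀_apply, pow_val_mul hx, smul_smul, ← map_mul, mul_inv, ← mul_assoc, mul_inv_cancel₀ hm, one_mul]

theorem lg_conj (g : Aˣ) (x : A) : lg p F ((g : A) * x * ((g⁻¹ : Aˣ) : A)) = (g : A) * lg p F x * ((g⁻¹ : Aˣ) : A) := by
  rw [lg, lg, mul_neg, neg_mul, mul_sum, sum_mul]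
  congr 1
  refine sum_congr rfl fun k _ => ?_
  rw [mul_smul_comm, smul_mul_assoc, Units.conj_pow]

theorem sum_inv (h2 : p ≠ 2) : ∑ k : ZMod p, pc p F k⁻¹ = 0 := by
  rw [← map_sum]
  have h1 : ∑ k : ZMod p, k⁻¹ = ∑ k : ZMod p, (-k)⁻¹ := (Equiv.sum_comp (Equiv.neg (ZMod p)) fun k => k⁻¹).symm
  have h3 : ∑ k : ZMod p, (-k)⁻¹ = - ∑ k : ZMod p, k⁻¹ := by
    rw [← sum_neg_distrib]
    exact sum_congr rfl fun k _ => inv_neg
  rw [h3] at h1
  have h4 : (2 : ZMod p) ≠ 0 := by
    intro h
    have h5 : ((2 : ℕ) : ZMod p) = 0 := by exact_mod_cast h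
    rw [ZMod.natCast_eq_zero_iff] at h5
    exact h2 ((Nat.prime_dvd_prime_iff_eq hp.1 Nat.prime_two).1 h5)
  have h6 : (2 : ZMod p) * ∑ k : ZMod p, k⁻¹ = 0 := by
    rw [two_mul]
    nth_rewrite 1 [h1]
    rw [neg_add_cancel]
  rw [(mul_eq_zero.1 h6).resolve_left h4, map_zero]

theorem sum_inv_mul : ∑ k : ZMod p, pc p F k⁻¹ * (k.val : F) = -1 := by
  have h1 : ∀ k : ZMod p, pc p F k⁻¹ * (k.val : F) = pc p F (k⁻¹ * k) := by
    intro k
    rw [map_mul, ← pc_natCast (p := p), ZMod.natCast_zmod_val]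
  rw [sum_congr rfl fun k _ => h1 k, ← map_sum]
  have h2 : ∑ k : ZMod p, k⁻¹ * k = -1 := by
    rw [← Finset.add_sum_erase _ _ (mem_univ (0 : ZMod p)), mul_zero, zero_add]
    rw [sum_congr rfl fun k hk => inv_mul_cancel₀ (ne_of_mem_erase hk), sum_const, card_erase_of_mem (mem_univ _),
      card_univ, ZMod.card, nsmul_eq_mul, mul_one, Nat.cast_sub hp.1.one_le, ZMod.natCast_self]
    simp
  rw [h2, map_neg, map_one]

theorem exists_poly (h2 : p ≠ 2) : ∃ f : F[X], ∀ z : A, lg p F (1 + z) = z + z * z * aeval z f := by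
  set P : F[X] := - ∑ k : ZMod p, C (pc p F k⁻¹) * (1 + X) ^ k.val with hP
  have h1 : ∀ z : A, lg p F (1 + z) = aeval z P := by
    intro z
    rw [hP, lg, map_neg, map_sum]
    congr 1
    refine sum_congr rfl fun k _ => ?_
    rw [map_mul, aeval_C, map_pow, map_add, map_one, aeval_X, Algebra.smul_def]
  have h3 : X ^ 2 ∣ P - X := by
    rw [X_pow_dvd_iff]
    intro d hd
    rw [coeff_sub, hP, coeff_neg, finset_sum_coeff]
    interval_cases d
    · have : ∀ k : ZMod p, (C (pc p F k⁻¹) * (1 + X) ^ k.val).coeff 0 = pc p F k⁻¹ := by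
        intro k
        rw [coeff_C_mul, coeff_one_add_X_pow, Nat.choose_zero_right, Nat.cast_one, mul_one]
      rw [sum_congr rfl fun k _ => this k, sum_inv h2, neg_zero, coeff_X_zero, sub_zero]
    · have : ∀ k : ZMod p, (C (pc p F k⁻¹) * (1 + X) ^ k.val).coeff 1 = pc p F k⁻¹ * (k.val : F) := by
        intro k
        rw [coeff_C_mul, coeff_one_add_X_pow, Nat.choose_one_right]
      rw [sum_congr rfl fun k _ => this k, sum_inv_mul, neg_neg, coeff_X_one, sub_self]
  obtain ⟨f, hf⟩ := h3
  refine ⟨f, fun z => ?_⟩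
  rw [h1, show P = X + X ^ 2 * f by rw [← hf]; ring, map_add, map_mul, map_pow, aeval_X, sq]

theorem commute_aeval (z : A) (q : F[X]) : Commute z (aeval z q) := by
  have h3 : aeval z (X * q) = aeval z (q * X) := by rw [mul_comm]
  rw [map_mul, map_mul, aeval_X] at h3
  exact h3

/-- an element commuting with the logarithm commutes with the unipotent element -/
theorem commute_of_lg (h2 : p ≠ 2) {z g : A} {s : ℕ} (hz : z ^ s = 0) (h : Commute g (lg p F (1 + z))) :
    Commute g z := by
  obtain ⟨f, hf⟩ := exists_poly (p := p) (F := F) (A := A) h2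
  set l := lg p F (1 + z) with hl
  have hl' : l = z + z * z * aeval z f := hf z
  have key : ∀ i ≤ s, ∀ q : F[X], Commute g (z ^ (s - i) * aeval z q) := by
    intro i
    induction i with
    | zero =>
      intro _ q
      rw [Nat.sub_zero, hz, zero_mul]
      exact Commute.zero_right g
    | succ i ih =>
      intro hi q
      set j := s - (i + 1) with hj
      have hj1 : s - i = j + 1 := by omega
      have hih := fun q => ih (by omega) q
      rw [hj1] at hih
      have hzj : Commute g (z ^ j) := by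
        have e1 : l ^ j = z ^ j * aeval z ((1 + X * f) ^ j) := by
          rw [map_pow, map_add, map_one, map_mul, aeval_X]
          have hc : Commute z (1 + z * aeval z f) :=
            (Commute.one_right z).add_right ((Commute.refl z).mul_right (commute_aeval z f))
          rw [← hc.mul_pow, hl']
          congr 1
          rw [mul_add, mul_one, mul_assoc]
        obtain ⟨h', hh⟩ : ∃ h : F[X], (1 + X * f) ^ j = 1 + X * h := by
          have : (X : F[X]) ∣ (1 + X * f) ^ j - 1 := by
            have h4 : (1 + X * f) - 1 ∣ (1 + X * f) ^ j - 1 ^ j := sub_dvd_pow_sub_pow _ _ _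
            rw [one_pow, add_sub_cancel_left] at h4
            exact (Dvd.intro _ rfl).trans h4
          obtain ⟨h, hh⟩ := this
          exact ⟨h, by rw [← hh]; ring⟩
        rw [hh, map_add, map_one, map_mul, aeval_X, mul_add, mul_one, ← mul_assoc, ← pow_succ] at e1
        have e2 : z ^ j = l ^ j - z ^ (j + 1) * aeval z h' := by rw [e1, add_sub_cancel_right]
        rw [e2]
        exact (h.pow_right _).sub_right (hih h')
      have e3 : aeval z q = algebraMap F A (q.coeff 0) + z * aeval z (divX q) := by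
        conv_lhs => rw [← divX_mul_X_add q]
        rw [map_add, map_mul, aeval_X, aeval_C, add_comm]
        congr 1
        exact (commute_aeval z _).eq.symm
      rw [e3, mul_add, ← mul_assoc, ← pow_succ]
      exact (hzj.mul_right (Algebra.commutes _ _).symm).add_right (hih _)
  have h5 := key s le_rfl X
  rw [Nat.sub_self, pow_zero, one_mul, aeval_X] at h5
  exact h5

end Cfsg.Agent.Lib.FeitB
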