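import Mathlib

/-!
# Sums over a set with an action of a group of order `p` (helper78)
-/

set_option autoImplicit false
set_option linter.all false

namespace Cfsg.Agent.Lib.FeitC

open Finset Polynomial

variable {p : ℕ} [hp : Fact p.Prime] {F : Type*} [Field F] [CharP F p]

theorem geom_poly : ∑ i ∈ range p, (X : F[X]) ^ i = (X - 1) ^ (p - 1) := by
  have h1 : (∑ i ∈ range p, (X : F[X]) ^ i) * (X - 1) = (X - 1) ^ (p - 1) * (X - 1) := by
    rw [geom_sum_mul, ← pow_succ, Nat.sub_add_cancel hp.1.one_le, sub_pow_char, one_pow]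
  have h2 : (X - 1 : F[X]) ≠ 0 := X_sub_C_ne_zero (1 : F)
  exact mul_right_cancel₀ h2 h1

theorem geom_end {A : Type*} [Ring A] [Algebra F A] (T : A) : ∑ i ∈ range p, T ^ i = (T - 1) ^ (p - 1) := by
  have h := congrArg (aeval T) (geom_poly (p := p) (F := F))
  rw [map_sum, map_pow, map_sub, aeval_X, map_one] at h
  rw [← h]
  refine sum_congr rfl fun i _ => ?_
  rw [map_pow, aeval_X]

variable {Ω W : Type*} [AddCommGroup W] [Module F W]

theorem sum_stable [DecidableEq Ω] (s : Equiv.Perm Ω) (hs : s ^ p = 1) (T : Module.End F W) (hT : (T - 1) ^ (p - 1) = 0)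
    (f : Ω → W) (hf : ∀ ω, f (s ω) = T (f ω)) :
    ∀ (n : ℕ) (S : Finset Ω), S.card = n → (∀ ω ∈ S, s ω ∈ S) → (∀ ω ∈ S, s ω ≠ ω) → ∑ ω ∈ S, f ω = 0 := by
  have hfi : ∀ (i : ℕ) (ω : Ω), f ((s ^ i) ω) = (T ^ i) (f ω) := by
    intro i
    induction i with
    | zero => intro ω; rfl
    | succ i ih =>
      intro ω
      rw [pow_succ', Equiv.Perm.mul_apply, hf, ih, pow_succ', Module.End.mul_apply]
  intro n
  induction n using Nat.strong_induction_on with
  | _ n ih =>
    intro S hS h1 h2
    rcases S.eq_empty_or_nonempty with rfl | ⟨ω, hω⟩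
    · exact sum_empty
    have hinj : Set.InjOn (fun i : ℕ => (s ^ i) ω) (range p : Finset ℕ) := by
      have hper : Function.IsPeriodicPt (⇑s) p ω := by
        show (⇑s)^[p] ω = ω
        rw [← Equiv.Perm.coe_pow, hs, Equiv.Perm.one_apply]
      have hmin : Function.minimalPeriod (⇑s) ω = p := by
        apply Function.minimalPeriod_eq_prime hper
        exact h2 ω hω
      intro i hi j hj hij
      rw [coe_range, Set.mem_Iio] at hi hj
      have hij' : (⇑s)^[i] ω = (⇑s)^[j] ω := by
        rw [← Equiv.Perm.coe_pow, ← Equiv.Perm.coe_pow]; exact hij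
      exact (Function.iterate_eq_iterate_iff_of_lt_minimalPeriod (by rwa [hmin]) (by rwa [hmin])).1 hij'
    set O : Finset Ω := (range p).image fun i => (s ^ i) ω with hO
    have hmem : ∀ i : ℕ, (s ^ i) ω ∈ S := by
      intro i
      induction i with
      | zero => exact hω
      | succ i ih => rw [pow_succ', Equiv.Perm.mul_apply]; exact h1 _ ih
    have hOS : O ⊆ S := by
      intro y hy
      obtain ⟨i, _, rfl⟩ := mem_image.1 hy
      exact hmem i
    have hsumO : ∑ y ∈ O, f y = 0 := by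
      rw [hO, sum_image hinj, sum_congr rfl fun i _ => hfi i ω, ← LinearMap.sum_apply, geom_end (p := p) (F := F) T, hT,
        LinearMap.zero_apply]
    have hpow : ∀ y ∈ O, s y ∈ O := by
      intro y hy
      obtain ⟨i, hi, rfl⟩ := mem_image.1 hy
      rw [mem_range] at hi
      rw [← Equiv.Perm.mul_apply, ← pow_succ']
      rcases Nat.lt_or_ge (i + 1) p with h | h
      · exact mem_image.2 ⟨i + 1, mem_range.2 h, rfl⟩
      · have : i + 1 = p := by omega
        rw [this, hs]
        exact mem_image.2 ⟨0, mem_range.2 hp.1.pos, rfl⟩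
    have hback : ∀ y, s y ∈ O → y ∈ O := by
      intro y hy
      have h3 : ∀ i : ℕ, (s ^ (i + 1)) y ∈ O := by
        intro i
        induction i with
        | zero => rw [zero_add, pow_one]; exact hy
        | succ i ih => rw [pow_succ', Equiv.Perm.mul_apply]; exact hpow _ ih
      have h4 := h3 (p - 1)
      rwa [Nat.sub_add_cancel hp.1.one_le, hs, Equiv.Perm.one_apply] at h4
    have hlt : (S \ O).card < n := by
      rw [← hS]
      apply card_lt_card
      refine ⟨sdiff_subset, fun h => ?_⟩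
      have h3 := h hω
      rw [mem_sdiff] at h3
      exact h3.2 (mem_image.2 ⟨0, mem_range.2 hp.1.pos, rfl⟩)
    have h3 := ih _ hlt (S \ O) rfl (fun y hy => by
      rw [mem_sdiff] at hy ⊢
      exact ⟨h1 y hy.1, fun h => hy.2 (hback y h)⟩) (fun y hy => h2 y (mem_sdiff.1 hy).1)
    rw [← sum_sdiff hOS, h3, hsumO, add_zero]

theorem sum_fixed [Fintype Ω] [DecidableEq Ω] (s : Equiv.Perm Ω) (hs : s ^ p = 1) (T : Module.End F W)
    (hT : (T - 1) ^ (p - 1) = 0) (f : Ω → W) (hf : ∀ ω, f (s ω) = T (f ω)) :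
    ∑ ω, f ω = ∑ ω ∈ univ.filter (fun ω => s ω = ω), f ω := by
  rw [← sum_filter_add_sum_filter_not univ (fun ω => s ω = ω) f]
  rw [sum_stable s hs T hT f hf _ (univ.filter fun ω => ¬ s ω = ω) rfl, add_zero]
  · intro ω hω
    rw [mem_filter] at hω ⊢
    exact ⟨mem_univ _, fun h => hω.2 (s.injective h)⟩
  · intro ω hω
    exact (mem_filter.1 hω).2

end Cfsg.Agent.Lib.FeitC
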