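import Mathlib
import Cfsg.Agent.Lib.FeitB
import Cfsg.Agent.Lib.FeitC

/-!
# Relative traces from a Sylow subgroup of order `p` (helper78)
-/

set_option autoImplicit false
set_option linter.all false

namespace Cfsg.Agent.Lib.FeitD

open Finset Module Cfsg.Agent.Lib.FeitB Cfsg.Agent.Lib.FeitC
open scoped Classical

variable {p : ℕ} [hp : Fact p.Prime] {F : Type*} [Field F] [CharP F p]
variable {G : Type*} [Group G] [Finite G] (x : G)
variable {W : Type*} [AddCommGroup W] [Module F W]

noncomputable instance : Fintype (G ⧸ Subgroup.zpowers x) := Fintype.ofFinite _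

/-- the cosets fixed by `x` -/
noncomputable def Fx : Finset (G ⧸ Subgroup.zpowers x) := univ.filter fun q => x • q = q

theorem mem_Fx {x : G} {q : G ⧸ Subgroup.zpowers x} : q ∈ Fx x ↔ q.out⁻¹ * x * q.out ∈ Subgroup.zpowers x := by
  rw [Fx, mem_filter, and_iff_right (mem_univ _)]
  conv_lhs => rw [← q.out_eq']
  constructor
  · intro h
    have h1 : (Quotient.mk'' (x * q.out) : G ⧸ Subgroup.zpowers x) = Quotient.mk'' q.out := h
    have h2 := (QuotientGroup.eq (s := Subgroup.zpowers x)).1 h1.symm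
    rwa [← mul_assoc] at h2
  · intro h
    have h2 : (Quotient.mk'' q.out : G ⧸ Subgroup.zpowers x) = Quotient.mk'' (x * q.out) :=
      (QuotientGroup.eq (s := Subgroup.zpowers x)).2 (by rwa [← mul_assoc])
    exact h2.symm

theorem perm_pow (hx : x ^ p = 1) : (MulAction.toPerm x : Equiv.Perm (G ⧸ Subgroup.zpowers x)) ^ p = 1 := by
  have h1 : (MulAction.toPerm x : Equiv.Perm (G ⧸ Subgroup.zpowers x)) =
      MulAction.toPermHom G (G ⧸ Subgroup.zpowers x) x := rfl
  rw [h1, ← map_pow, hx, map_one]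

theorem card_Fx (hx : orderOf x = p) (hsyl : ¬ p ^ 2 ∣ Nat.card G) : ((Fx x).card : F) ≠ 0 := by
  have hxp : x ^ p = 1 := by rw [← hx, pow_orderOf_eq_one]
  have h1 := sum_fixed (p := p) (F := F) (W := F) (MulAction.toPerm x : Equiv.Perm (G ⧸ Subgroup.zpowers x))
    (perm_pow x hxp) 1 (by rw [sub_self, zero_pow]; have := hp.1.two_le; omega) (fun _ => (1 : F)) (fun _ => rfl)
  rw [sum_const, card_univ, nsmul_eq_mul, mul_one, sum_const, nsmul_eq_mul, mul_one] at h1
  intro h0
  have h2 : ((Fintype.card (G ⧸ Subgroup.zpowers x) : ℕ) : F) = 0 := by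
    rw [h1, ← h0]
    rfl
  rw [CharP.cast_eq_zero_iff F p] at h2
  apply hsyl
  rw [Subgroup.card_eq_card_quotient_mul_card_subgroup (Subgroup.zpowers x), Nat.card_zpowers, hx, sq,
    Nat.card_eq_fintype_card]
  exact Nat.mul_dvd_mul_right h2 p

variable (ρ : Representation F G W)

/-- relative trace -/
noncomputable def tr (v : W) : W := ∑ q : G ⧸ Subgroup.zpowers x, ρ q.out v

variable {x ρ}

theorem rho_mul (g h : G) (w : W) : ρ (g * h) w = ρ g (ρ h w) := by rw [map_mul]; rfl

/-- the stabilizer of a vector -/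
def stb (ρ : Representation F G W) (v : W) : Subgroup G where
  carrier := {u | ρ u v = v}
  mul_mem' := by
    intro a b ha hb
    show ρ (a * b) v = v
    rw [rho_mul, show ρ b v = v from hb, show ρ a v = v from ha]
  one_mem' := by
    show ρ 1 v = v
    rw [map_one]; rfl
  inv_mem' := by
    intro a ha
    show ρ a⁻¹ v = v
    have ha' : ρ a v = v := ha
    conv_lhs => rw [← ha']
    rw [← rho_mul, inv_mul_cancel, map_one]; rfl

theorem fix_of_mem {v : W} (hv : ρ x v = v) {u : G} (hu : u ∈ Subgroup.zpowers x) : ρ u v = v := by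
  have h : Subgroup.zpowers x ≤ stb ρ v := by
    rw [Subgroup.zpowers_le]
    exact hv
  exact h hu

theorem rho_out {v : W} (hv : ρ x v = v) (g : G) : ρ (g : G ⧸ Subgroup.zpowers x).out v = ρ g v := by
  obtain ⟨u, hu⟩ := QuotientGroup.mk_out_eq_mul (Subgroup.zpowers x) g
  rw [hu, rho_mul, fix_of_mem hv u.2]

theorem rho_tr {v : W} (hv : ρ x v = v) (g : G) : ρ g (tr x ρ v) = tr x ρ v := by
  rw [tr, map_sum]
  refine Fintype.sum_equiv (MulAction.toPerm g) _ _ fun q => ?_
  rw [MulAction.toPerm_apply]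
  conv_rhs => rw [← q.out_eq']
  rw [← rho_mul]
  exact (rho_out hv (g * q.out)).symm

/-- evaluation of a relative trace -/
theorem eval_tr {W' : Type*} [AddCommGroup W'] [Module F W'] (hx : x ^ p = 1) {v : W} (hv : ρ x v = v)
    (e : W →ₗ[F] W') (T : Module.End F W') (hT : (T - 1) ^ (p - 1) = 0) (he : ∀ w, e (ρ x w) = T (e w)) :
    e (tr x ρ v) = ∑ q ∈ Fx x, e (ρ q.out v) := by
  rw [tr, map_sum]
  refine sum_fixed (p := p) (MulAction.toPerm x : Equiv.Perm (G ⧸ Subgroup.zpowers x)) (perm_pow x hx) T hT _ ?_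
  intro q
  rw [← he, ← rho_mul, MulAction.toPerm_apply]
  conv_lhs => rw [← q.out_eq']
  exact congrArg e (rho_out hv (x * q.out))

/-- conjugation action on endomorphisms -/
noncomputable def conjRep (σ : Representation F G W) : Representation F G (Module.End F W) where
  toFun g :=
    { toFun := fun π => σ g * π * σ g⁻¹
      map_add' := fun a b => by rw [mul_add, add_mul]
      map_smul' := fun c a => by rw [mul_smul_comm, smul_mul_assoc]; rfl }
  map_one' := by
    apply LinearMap.ext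
    intro π
    show σ 1 * π * σ 1⁻¹ = π
    rw [inv_one, map_one, one_mul, mul_one]
  map_mul' a b := by
    apply LinearMap.ext
    intro π
    show σ (a * b) * π * σ (a * b)⁻¹ = σ a * (σ b * π * σ b⁻¹) * σ a⁻¹
    rw [mul_inv_rev, map_mul, map_mul]
    simp only [mul_assoc]

theorem conjRep_apply (σ : Representation F G W) (g : G) (π : Module.End F W) :
    conjRep σ g π = σ g * π * σ g⁻¹ := rfl

theorem sig_inv (σ : Representation F G W) (g : G) : σ g * σ g⁻¹ = 1 := by rw [← map_mul, mul_inv_cancel, map_one]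
theorem sig_inv' (σ : Representation F G W) (g : G) : σ g⁻¹ * σ g = 1 := by rw [← map_mul, inv_mul_cancel, map_one]

theorem conjRep_fix {σ : Representation F G W} {g : G} {π : Module.End F W} :
    conjRep σ g π = π ↔ σ g * π = π * σ g := by
  rw [conjRep_apply]
  constructor
  · intro h
    conv_rhs => rw [← h]
    rw [mul_assoc, mul_assoc, sig_inv', mul_one]
  · intro h
    rw [h, mul_assoc, sig_inv, mul_one]

section main

variable [FiniteDimensional F W] {σ : Representation F G W} {X Y : W} {lam : W →ₗ[F] F}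

/-- **the key construction**: a `G`-submodule whose `x`-fixed points are spanned by `X`. -/
theorem exists_L (hx : orderOf x = p) (hsyl : ¬ p ^ 2 ∣ Nat.card G)
    (h1 : (σ x - 1) ^ (p - 1) = 0) (h2 : (σ x - 1) ((σ x - 1) Y) = X) (h3 : σ x X = X)
    (h4 : ∀ w, lam ((σ x - 1) ((σ x - 1) ((σ x - 1) w))) = 0) (h5 : lam X = 1)
    (h6 : ∀ g, g⁻¹ * x * g ∈ Subgroup.zpowers x → ∃ c : F, σ g X = c • X) :
    ∃ L : Submodule F W, (∀ g, ∀ w ∈ L, σ g w ∈ L) ∧ X ∈ L ∧ ∃ e ∈ L, (σ x - 1) ((σ x - 1) e) = X ∧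
      ∀ w ∈ L, ∃ a b c : F, w = a • e + b • (σ x - 1) e + c • X := by
  have hxp : x ^ p = 1 := by rw [← hx, pow_orderOf_eq_one]
  set z := σ x - 1 with hz
  have hzX : z X = 0 := by rw [hz, LinearMap.sub_apply, h3]; simp
  -- the projection
  let π : Module.End F W := (lam.smulRight X) + (lam.comp z).smulRight (z Y) + (lam.comp (z * z)).smulRight Y
  have hπ : ∀ w, π w = lam w • X + lam (z w) • z Y + lam (z (z w)) • Y := fun w => rfl
  have hπz : ∀ w, π (z w) = z (π w) := by
    intro w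
    rw [hπ, hπ, h4, zero_smul, add_zero, map_add, map_add, map_smul, map_smul, map_smul, hzX, smul_zero, zero_add,
      h2]
  have hsx : ∀ v, σ x v = z v + v := by
    intro v
    rw [hz, LinearMap.sub_apply, Module.End.one_apply, sub_add_cancel]
  have hπx : σ x * π = π * σ x := by
    apply LinearMap.ext
    intro w
    rw [Module.End.mul_apply, Module.End.mul_apply, hsx, hsx, map_add, hπz]
  have hπfix : conjRep σ x π = π := conjRep_fix.2 hπx
  have hev : ∀ a : W, σ x a = a → (tr x (conjRep σ) π) a = ∑ q ∈ Fx x, σ q.out (π (σ q.out⁻¹ a)) := by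
    intro a ha
    have h7 := eval_tr (p := p) (ρ := conjRep σ) hxp hπfix (LinearMap.applyₗ a) (σ x) (by rw [← hz]; exact h1) ?_
    · exact h7
    · intro w
      show (σ x * w * σ x⁻¹) a = σ x (w a)
      rw [Module.End.mul_apply, Module.End.mul_apply]
      have : σ x⁻¹ a = a := by
        conv_lhs => rw [← ha]
        rw [← rho_mul, inv_mul_cancel, map_one]; rfl
      rw [this]
  -- scalars
  have h6' : ∀ q ∈ Fx x, ∃ c : F, σ q.out X = c • X := fun q hq => h6 _ (mem_Fx.1 hq)
  have h6i : ∀ q ∈ Fx x, ∃ c : F, σ q.out⁻¹ X = c • X := by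
    intro q hq
    obtain ⟨c, hc⟩ := h6' q hq
    have hc0 : c ≠ 0 := by
      rintro rfl
      rw [zero_smul] at hc
      have h8 : X = 0 := by
        have h9 := congrArg (σ q.out⁻¹) hc
        rw [← rho_mul, inv_mul_cancel, map_one, map_zero] at h9
        exact h9
      rw [h8, map_zero] at h5
      exact zero_ne_one h5
    refine ⟨c⁻¹, ?_⟩
    have h9 := congrArg (σ q.out⁻¹) hc
    rw [← rho_mul, inv_mul_cancel, map_one, map_smul] at h9
    have h9' : X = c • σ q.out⁻¹ X := h9
    conv_rhs => rw [h9', smul_smul, inv_mul_cancel₀ hc0, one_smul]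
  have hfixpres : ∀ q ∈ Fx x, ∀ a : W, σ x a = a → σ x (σ q.out⁻¹ a) = σ q.out⁻¹ a := by
    intro q hq a ha
    have h8 := mem_Fx.1 hq
    -- `q.out⁻¹ x q.out` generates, so `x = q.out⁻¹ u q.out` with `u` in the subgroup
    have h9 : ∃ u ∈ Subgroup.zpowers x, x * q.out⁻¹ = q.out⁻¹ * u := by
      set n := q.out with hn
      have h10 : (Subgroup.zpowers x).map (MulAut.conj n⁻¹).toMonoidHom ≤ Subgroup.zpowers x := by
        rw [MonoidHom.map_zpowers, Subgroup.zpowers_le]
        simpa using h8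
      have h11 : (Subgroup.zpowers x).map (MulAut.conj n⁻¹).toMonoidHom = Subgroup.zpowers x := by
        apply Subgroup.eq_of_le_of_card_ge h10
        rw [Subgroup.card_map_of_injective (MulAut.conj n⁻¹).injective]
      have h12 : x ∈ (Subgroup.zpowers x).map (MulAut.conj n⁻¹).toMonoidHom := by
        rw [h11]; exact Subgroup.mem_zpowers x
      obtain ⟨u, hu, hux⟩ := h12
      refine ⟨u, hu, ?_⟩
      have h13 : n⁻¹ * u * n = x := by simpa using hux
      rw [← h13]
      group
    obtain ⟨u, hu, hux⟩ := h9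
    rw [← rho_mul, hux, rho_mul, fix_of_mem ha hu]
  have hπfixed : ∀ a, σ x a = a → π a = lam a • X := by
    intro a ha
    have : z a = 0 := by rw [hz, LinearMap.sub_apply, ha]; simp
    rw [hπ, this, map_zero, map_zero, map_zero, zero_smul, zero_smul, add_zero, add_zero]
  -- the endomorphism
  set m0 : F := ((Fx x).card : F) with hm0
  have hm : m0 ≠ 0 := card_Fx x hx hsyl
  set φ : Module.End F W := m0⁻¹ • tr x (conjRep σ) π with hφ
  have hφG : ∀ g, σ g * φ = φ * σ g := by
    intro g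
    rw [← conjRep_fix, hφ, map_smul, rho_tr hπfix]
  have hφX : φ X = X := by
    rw [hφ, LinearMap.smul_apply, hev X h3]
    have : ∀ q ∈ Fx x, σ q.out (π (σ q.out⁻¹ X)) = X := by
      intro q hq
      obtain ⟨c, hc⟩ := h6i q hq
      rw [hc, map_smul, hπfixed X h3, h5, one_smul, ← hc, ← rho_mul, mul_inv_cancel, map_one]
      rfl
    rw [sum_congr rfl this, sum_const, ← Nat.cast_smul_eq_nsmul F, ← hm0, smul_smul, inv_mul_cancel₀ hm, one_smul]
  have hφP : ∀ a, σ x a = a → ∃ c : F, φ a = c • X := by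
    intro a ha
    have : ∀ q ∈ Fx x, ∃ c : F, σ q.out (π (σ q.out⁻¹ a)) = c • X := by
      intro q hq
      obtain ⟨c, hc⟩ := h6' q hq
      refine ⟨lam (σ q.out⁻¹ a) * c, ?_⟩
      rw [hπfixed _ (hfixpres q hq a ha), map_smul, hc, smul_smul]
    choose! c hc using this
    refine ⟨m0⁻¹ * ∑ q ∈ Fx x, c q, ?_⟩
    rw [hφ, LinearMap.smul_apply, hev a ha, sum_congr rfl hc, ← sum_smul, smul_smul]
  -- Fitting
  have hFit := LinearMap.isCompl_iSup_ker_pow_iInf_range_pow φ
  set K := ⨆ n, LinearMap.ker (φ ^ n) with hK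
  set L := ⨅ n, LinearMap.range (φ ^ n) with hL
  have hφGn : ∀ (n : ℕ) g, σ g * φ ^ n = φ ^ n * σ g := fun n g => ((show Commute (σ g) φ from hφG g).pow_right n).eq
  have hLG : ∀ g, ∀ w ∈ L, σ g w ∈ L := by
    intro g w hw
    rw [hL, Submodule.mem_iInf] at hw ⊢
    intro n
    obtain ⟨v, hv⟩ := hw n
    refine ⟨σ g v, ?_⟩
    rw [← hv, ← Module.End.mul_apply, ← hφGn, Module.End.mul_apply]
  have hKG : ∀ g, ∀ w ∈ K, σ g w ∈ K := by
    intro g w hw
    rw [hK] at hw ⊢
    rw [Submodule.mem_iSup_of_directed _ (by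
      apply Monotone.directed_le
      intro a b hab v hv
      rw [LinearMap.mem_ker] at hv ⊢
      obtain ⟨d, rfl⟩ := Nat.exists_eq_add_of_le' hab
      rw [pow_add, Module.End.mul_apply, hv, map_zero])] at hw ⊢
    obtain ⟨n, hn⟩ := hw
    refine ⟨n, ?_⟩
    rw [LinearMap.mem_ker] at hn ⊢
    rw [← Module.End.mul_apply, ← hφGn, Module.End.mul_apply, hn, map_zero]
  have hXL : X ∈ L := by
    rw [hL, Submodule.mem_iInf]
    intro n
    refine ⟨X, ?_⟩
    induction n with
    | zero => rfl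
    | succ n ih => rw [pow_succ, Module.End.mul_apply, hφX, ih]
  have hinj : ∀ w ∈ L, φ w = 0 → w = 0 := by
    intro w hw h0
    have hwK : w ∈ K := by
      rw [hK]
      exact Submodule.mem_iSup_of_mem 1 (by rw [LinearMap.mem_ker, pow_one]; exact h0)
    exact Submodule.disjoint_def.1 hFit.disjoint w hwK hw
  have hfixL : ∀ w ∈ L, z w = 0 → ∃ c : F, w = c • X := by
    intro w hw hzw
    have hxw : σ x w = w := by
      have : σ x w - w = 0 := by rw [← hzw, hz]; rfl
      exact sub_eq_zero.1 this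
    obtain ⟨c, hc⟩ := hφP w hxw
    refine ⟨c, ?_⟩
    have h8 := hinj (w - c • X) (L.sub_mem hw (L.smul_mem c hXL)) (by rw [map_sub, hc, map_smul, hφX, sub_self])
    exact sub_eq_zero.1 h8
  have hzL : ∀ w ∈ L, z w ∈ L := by
    intro w hw
    rw [hz, LinearMap.sub_apply]
    exact L.sub_mem (hLG x w hw) hw
  have hzK : ∀ w ∈ K, z w ∈ K := by
    intro w hw
    rw [hz, LinearMap.sub_apply]
    exact K.sub_mem (hKG x w hw) hw
  -- decompose `Y`
  obtain ⟨k, hk, e, he, hke⟩ : ∃ k ∈ K, ∃ e ∈ L, k + e = Y := by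
    have : Y ∈ K ⊔ L := by rw [hFit.sup_eq_top]; trivial
    exact Submodule.mem_sup.1 this
  have hzze : z (z e) = X := by
    have h8 : z (z k) + z (z e) = X := by rw [← map_add, ← map_add, hke, h2]
    have h9 : X - z (z e) = z (z k) := by rw [← h8, add_sub_cancel_right]
    have h10 : X - z (z e) = 0 := by
      apply Submodule.disjoint_def.1 hFit.disjoint
      · rw [h9]; exact hzK _ (hzK _ hk)
      · exact L.sub_mem hXL (hzL _ (hzL _ he))
    exact (sub_eq_zero.1 h10).symm
  have hz3 : ∀ w ∈ L, z (z (z w)) = 0 := by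
    intro w hw
    by_contra hne
    -- the last nonzero iterate
    have hnil : ∃ n, (z ^ n) (z (z (z w))) = 0 := ⟨p - 1, by rw [h1]; rfl⟩
    obtain ⟨n, hn, hn'⟩ : ∃ n, (z ^ n) (z (z (z w))) ≠ 0 ∧ (z ^ (n + 1)) (z (z (z w))) = 0 := by
      have hfind := Nat.find_spec hnil
      have hmin := @Nat.find_min _ _ hnil
      rcases Nat.eq_zero_or_pos (Nat.find hnil) with h0 | h0
      · rw [h0] at hfind
        exact absurd hfind hne
      · refine ⟨Nat.find hnil - 1, hmin (by omega), ?_⟩
        rw [Nat.sub_add_cancel h0]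
        exact hfind
    have hLn : ∀ (n : ℕ), ∀ w ∈ L, (z ^ n) w ∈ L := by
      intro n
      induction n with
      | zero => intro w hw; exact hw
      | succ n ih => intro w hw; rw [pow_succ, Module.End.mul_apply]; exact ih _ (hzL _ hw)
    obtain ⟨c, hc⟩ := hfixL _ (hLn n _ (hzL _ (hzL _ (hzL _ hw)))) (by
      rw [pow_succ', Module.End.mul_apply] at hn'; exact hn')
    have hc0 : c ≠ 0 := by rintro rfl; rw [zero_smul] at hc; exact hn hc
    have hcomm : (z ^ n) (z (z (z w))) = z (z (z ((z ^ n) w))) := by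
      have e1 : z ^ n * (z * (z * z)) = z * (z * (z * z ^ n)) := by
        have h8 : Commute (z ^ n) z := (Commute.refl z).pow_left n
        rw [← mul_assoc, h8.eq, mul_assoc z, ← mul_assoc (z ^ n), h8.eq, mul_assoc z, h8.eq]
      have h9 := LinearMap.congr_fun e1 w
      simpa [Module.End.mul_apply] using h9
    rw [hcomm] at hc
    have h8 := h4 ((z ^ n) w)
    rw [hc, map_smul, h5, smul_eq_mul, mul_one] at h8
    exact hc0 h8
  refine ⟨L, hLG, hXL, e, he, hzze, ?_⟩
  intro w hw
  obtain ⟨a, ha⟩ := hfixL (z (z w)) (hzL _ (hzL _ hw)) (hz3 w hw)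
  have hw1 : w - a • e ∈ L := L.sub_mem hw (L.smul_mem a he)
  obtain ⟨b, hb⟩ := hfixL (z (w - a • e)) (hzL _ hw1) (by
    rw [map_sub, map_sub, map_smul, map_smul, hzze, ha, sub_self])
  have hw2 : w - a • e - b • z e ∈ L := L.sub_mem hw1 (L.smul_mem b (hzL _ he))
  obtain ⟨c, hc⟩ := hfixL (w - a • e - b • z e) hw2 (by
    rw [map_sub, hb, map_smul, hzze, sub_self])
  refine ⟨a, b, c, ?_⟩
  rw [← hc]
  abel

end main

end Cfsg.Agent.Lib.FeitD
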