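import Mathlib
import Cfsg.Agent.Lib.FeitD

/-!
# The invariant form on a three-dimensional module (helper78)
-/

set_option autoImplicit false
set_option linter.all false

namespace Cfsg.Agent.Lib.FeitE

open Finset Module Matrix Cfsg.Agent.Lib.FeitB Cfsg.Agent.Lib.FeitC Cfsg.Agent.Lib.FeitD
open scoped Classical

/-- the unipotent matrix with one block -/
def UU (F : Type*) [Field F] : Matrix (Fin 3) (Fin 3) F := !![1, 0, 0; 1, 1, 0; 0, 1, 1]

/-- the Gram matrix -/
def JJ {F : Type*} [Field F] (γ : F) : Matrix (Fin 3) (Fin 3) F := !![γ, 1 / 2, 1; 1 / 2, -1, 0; 1, 0, 0]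

section basis

variable {F : Type*} [Field F] {G : Type*} [Group G] {x : G}
variable {W : Type*} [AddCommGroup W] [Module F W] {σ : Representation F G W} {L : Submodule F W} {X e : W}

/-- the restricted representation -/
noncomputable def resRep (σ : Representation F G W) (L : Submodule F W) (hL : ∀ g, ∀ w ∈ L, σ g w ∈ L) :
    Representation F G L where
  toFun g := (σ g).restrict (hL g)
  map_one' := by
    apply LinearMap.ext
    intro w
    apply Subtype.ext
    show σ 1 (w : W) = w
    rw [map_one]; rfl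
  map_mul' a b := by
    apply LinearMap.ext
    intro w
    apply Subtype.ext
    show σ (a * b) (w : W) = σ a (σ b w)
    rw [map_mul]; rfl

theorem exists_tau (hL : ∀ g, ∀ w ∈ L, σ g w ∈ L) (hX : X ∈ L) (hX0 : X ≠ 0) (he : e ∈ L)
    (hzX : (σ x - 1) X = 0) (hze : (σ x - 1) ((σ x - 1) e) = X)
    (hsp : ∀ w ∈ L, ∃ a b c : F, w = a • e + b • (σ x - 1) e + c • X) :
    ∃ τ : G →* Matrix (Fin 3) (Fin 3) F, τ x = UU F ∧
      ∀ (g : G) (c : F), τ g *ᵥ ![0, 0, 1] = c • ![0, 0, 1] ↔ σ g X = c • X := by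
  set z := σ x - 1 with hz
  have hzL : ∀ w ∈ L, z w ∈ L := fun w hw => by
    rw [hz, LinearMap.sub_apply]
    exact L.sub_mem (hL x w hw) hw
  let v : Fin 3 → L := ![⟨e, he⟩, ⟨z e, hzL e he⟩, ⟨X, hX⟩]
  have hli : LinearIndependent F v := by
    rw [Fintype.linearIndependent_iff]
    intro c hc
    rw [Fin.sum_univ_three] at hc
    have h1 : c 0 • e + c 1 • z e + c 2 • X = 0 := congrArg Subtype.val hc
    have h2 := congrArg z h1
    rw [map_add, map_add, map_smul, map_smul, map_smul, hzX, hze, smul_zero, add_zero, map_zero] at h2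
    have h3 := congrArg z h2
    rw [map_add, map_smul, map_smul, hzX, hze, smul_zero, add_zero, map_zero] at h3
    have c0 : c 0 = 0 := (smul_eq_zero.1 h3).resolve_right hX0
    rw [c0, zero_smul, zero_add] at h2
    have c1 : c 1 = 0 := (smul_eq_zero.1 h2).resolve_right hX0
    rw [c0, c1, zero_smul, zero_smul, zero_add, zero_add] at h1
    have c2 : c 2 = 0 := (smul_eq_zero.1 h1).resolve_right hX0
    intro i
    fin_cases i
    · exact c0
    · exact c1
    · exact c2
  have hspan : ⊤ ≤ Submodule.span F (Set.range v) := by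
    rintro ⟨w, hw⟩ -
    obtain ⟨a, b, c, habc⟩ := hsp w hw
    have : (⟨w, hw⟩ : L) = a • v 0 + b • v 1 + c • v 2 := Subtype.ext habc
    rw [this]
    exact Submodule.add_mem _ (Submodule.add_mem _ (Submodule.smul_mem _ _ (Submodule.subset_span ⟨0, rfl⟩))
      (Submodule.smul_mem _ _ (Submodule.subset_span ⟨1, rfl⟩))) (Submodule.smul_mem _ _ (Submodule.subset_span ⟨2, rfl⟩))
  let b : Basis (Fin 3) F L := Basis.mk hli hspan
  have hb : ∀ i, b i = v i := fun i => Basis.mk_apply hli hspan i
  let τ : G →* Matrix (Fin 3) (Fin 3) F := (LinearMap.toMatrixAlgEquiv b : Module.End F L ≃ₐ[F] _).toMonoidHom.comp (resRep σ L hL)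
  have hτ : ∀ g, τ g = LinearMap.toMatrix b b (resRep σ L hL g) := fun g => rfl
  have hcol : ∀ (g : G) (j : Fin 3) (c : Fin 3 → F), ((σ g (v j : L) : W) = ∑ i, c i • ((v i : L) : W)) → ∀ i, τ g i j = c i := by
    intro g j c hc i
    rw [hτ, LinearMap.toMatrix_apply]
    have h1 : resRep σ L hL g (b j) = ∑ i, c i • b i := by
      rw [hb]
      apply Subtype.ext
      rw [AddSubmonoidClass.coe_finset_sum]
      show σ g (v j : L) = _
      rw [hc]
      refine sum_congr rfl fun i _ => ?_
      rw [hb]; rfl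
    rw [h1, b.repr_sum_self]
  have hsx : ∀ w, σ x w = z w + w := fun w => by rw [hz, LinearMap.sub_apply, Module.End.one_apply, sub_add_cancel]
  refine ⟨τ, ?_, ?_⟩
  · have e0 := hcol x 0 ![1, 1, 0] (by
      rw [Fin.sum_univ_three]
      show σ x e = (1 : F) • e + (1 : F) • z e + (0 : F) • X
      rw [hsx]; module)
    have e1 := hcol x 1 ![0, 1, 1] (by
      rw [Fin.sum_univ_three]
      show σ x (z e) = (0 : F) • e + (1 : F) • z e + (1 : F) • X
      rw [hsx, hze]; module)
    have e2 := hcol x 2 ![0, 0, 1] (by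
      rw [Fin.sum_univ_three]
      show σ x X = (0 : F) • e + (0 : F) • z e + (1 : F) • X
      rw [hsx, hzX]; module)
    ext i j
    fin_cases j
    · have := e0 i
      fin_cases i <;> simpa [UU] using this
    · have := e1 i
      fin_cases i <;> simpa [UU] using this
    · have := e2 i
      fin_cases i <;> simpa [UU] using this
  · intro g c
    have h2 : b.repr (b 2) = Finsupp.single 2 1 := b.repr_self 2
    have h3 : (![0, 0, 1] : Fin 3 → F) = b.repr (b 2) := by
      rw [h2]
      ext i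
      fin_cases i <;> simp [Finsupp.single_apply]
    have h4 : τ g *ᵥ ![0, 0, 1] = b.repr (resRep σ L hL g (b 2)) := by
      rw [h3, hτ]
      exact LinearMap.toMatrix_mulVec_repr b b _ _
    have hb2 : ((b 2 : L) : W) = X := by rw [hb]; rfl
    rw [h4, h3]
    constructor
    · intro h5
      have h6 : b.repr (resRep σ L hL g (b 2)) = b.repr (c • b 2) := by
        rw [map_smul]
        ext i
        exact congrFun h5 i
      have h7 := congrArg Subtype.val (b.repr.injective h6)
      have h8 : σ g ((b 2 : L) : W) = c • ((b 2 : L) : W) := h7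
      rwa [hb2] at h8
    · intro h5
      have h6 : resRep σ L hL g (b 2) = c • b 2 := by
        apply Subtype.ext
        show σ g ((b 2 : L) : W) = c • ((b 2 : L) : W)
        rw [hb2, h5]
      rw [h6, map_smul]
      rfl

end basis

section form

variable {p : ℕ} [hp : Fact p.Prime] {F : Type*} [Field F] [CharP F p]
variable {G : Type*} [Group G] [Finite G] {x : G}

/-- action on Gram matrices -/
noncomputable def gramRep (τ : G →* Matrix (Fin 3) (Fin 3) F) : Representation F G (Matrix (Fin 3) (Fin 3) F) where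
  toFun g :=
    { toFun := fun m => (τ g⁻¹)ᵀ * m * τ g⁻¹
      map_add' := fun a b => by rw [mul_add, add_mul]
      map_smul' := fun c a => by rw [mul_smul_comm, smul_mul_assoc]; rfl }
  map_one' := by
    apply LinearMap.ext
    intro π
    show (τ 1⁻¹)ᵀ * π * τ 1⁻¹ = π
    rw [inv_one, map_one, transpose_one, one_mul, mul_one]
  map_mul' a b := by
    apply LinearMap.ext
    intro π
    show (τ (a * b)⁻¹)ᵀ * π * τ (a * b)⁻¹ = (τ a⁻¹)ᵀ * ((τ b⁻¹)ᵀ * π * τ b⁻¹) * τ a⁻¹
    rw [_root_.mul_inv_rev, map_mul, transpose_mul]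
    simp only [mul_assoc]

theorem gramRep_apply (τ : G →* Matrix (Fin 3) (Fin 3) F) (g : G) (m : Matrix (Fin 3) (Fin 3) F) :
    gramRep τ g m = (τ g⁻¹)ᵀ * m * τ g⁻¹ := rfl

theorem UU_pow (n : ℕ) : UU F ^ n = !![1, 0, 0; (n : F), 1, 0; (n.choose 2 : F), (n : F), 1] := by
  induction n with
  | zero =>
    ext i j
    fin_cases i <;> fin_cases j <;> simp
  | succ n ih =>
    rw [pow_succ, ih, UU]
    have h : ((n + 1).choose 2 : F) = n + n.choose 2 := by
      rw [Nat.choose_succ_succ' n 1, Nat.choose_one_right]; push_cast; ring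
    ext i j
    fin_cases i <;> fin_cases j <;> simp [Matrix.mul_apply, Fin.sum_univ_three, h] <;> ring

theorem exists_form (h5 : 5 ≤ p) (hx : orderOf x = p) (hsyl : ¬ p ^ 2 ∣ Nat.card G)
    (τ : G →* Matrix (Fin 3) (Fin 3) F) (hτx : τ x = UU F)
    (hτ : ∀ (g : G) (m : ZMod p), g * x * g⁻¹ = x ^ m.val → τ g *ᵥ ![0, 0, 1] = pc p F m • ![0, 0, 1]) :
    ∃ γ : F, ∀ g, (τ g)ᵀ * JJ γ * τ g = JJ γ := by
  have hxp : x ^ p = 1 := by rw [← hx, pow_orderOf_eq_one]
  have h2 : (2 : F) ≠ 0 := by
    intro h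
    have h3 : ((2 : ℕ) : F) = 0 := by exact_mod_cast h
    rw [CharP.cast_eq_zero_iff F p] at h3
    have := Nat.le_of_dvd (by norm_num) h3
    omega
  set V : Matrix (Fin 3) (Fin 3) F := !![1, 0, 0; -1, 1, 0; 1, -1, 1] with hV
  have hUV : UU F * V = 1 := by
    rw [hV, UU]
    ext i j
    fin_cases i <;> fin_cases j <;> simp [Matrix.mul_apply, Fin.sum_univ_three]
  have hτxi : τ x⁻¹ = V := by
    have h6 : τ x⁻¹ * τ x = 1 := by rw [← map_mul, inv_mul_cancel, map_one]
    have h7 : τ x⁻¹ * (UU F * V) = V := by rw [← mul_assoc, ← hτx, h6, one_mul]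
    rw [← h7, hUV, mul_one]
  set J0 : Matrix (Fin 3) (Fin 3) F := JJ 0 with hJ0
  have hJ0x : gramRep τ x J0 = J0 := by
    rw [gramRep_apply, hτxi, hV, hJ0, JJ]
    ext i j
    fin_cases i <;> fin_cases j <;> simp [Matrix.mul_apply, Fin.sum_univ_three] <;> field_simp <;> ring
  have hVe : V *ᵥ ![0, 0, 1] = ![0, 0, 1] := by
    rw [hV]
    ext i
    fin_cases i <;> simp [Matrix.mulVec, dotProduct, Fin.sum_univ_three]
  let ev : Matrix (Fin 3) (Fin 3) F →ₗ[F] (Fin 3 → F) :=
    { toFun := fun m => m *ᵥ ![0, 0, 1]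
      map_add' := fun a b => add_mulVec _ _ _
      map_smul' := fun c a => by rw [smul_mulVec]; rfl }
  let T : Module.End F (Fin 3 → F) := Matrix.toLin' Vᵀ
  have hT : (T - 1) ^ (p - 1) = 0 := by
    have h8 : (T - 1) ^ 3 = 0 := by
      have e1 : T - 1 = Matrix.toLin' (Vᵀ - 1) := by
        rw [map_sub, Matrix.toLin'_one]; rfl
      have e2 : (Vᵀ - 1) ^ 3 = (0 : Matrix (Fin 3) (Fin 3) F) := by
        rw [hV]
        ext i j
        fin_cases i <;> fin_cases j <;> simp [pow_succ, Matrix.mul_apply, Fin.sum_univ_three]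
      rw [e1, ← Matrix.toLin'_pow, e2, map_zero]
    have : p - 1 = 3 + (p - 4) := by omega
    rw [this, pow_add, h8, zero_mul]
  have hev := eval_tr (p := p) (ρ := gramRep τ) hxp hJ0x ev T hT (by
    intro w
    show ((τ x⁻¹)ᵀ * w * τ x⁻¹) *ᵥ ![0, 0, 1] = Matrix.toLin' Vᵀ (w *ᵥ ![0, 0, 1])
    rw [hτxi, Matrix.toLin'_apply, ← mulVec_mulVec, ← mulVec_mulVec, hVe])
  -- the fixed terms
  have hterm : ∀ q ∈ Fx x, ev (gramRep τ q.out J0) = ![1, 0, 0] := by
    intro q hq
    have h6 := mem_Fx.1 hq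
    set g := q.out with hg
    obtain ⟨n, hn⟩ : ∃ n : ℕ, x ^ n = g⁻¹ * x * g := by
      have := (mem_zpowers_iff_mem_range_orderOf (x := x) (y := g⁻¹ * x * g)).1 h6
      obtain ⟨n, _, hn⟩ := Finset.mem_image.1 this
      exact ⟨n, hn⟩
    set m : ZMod p := (n : ZMod p) with hm
    have hmn : x ^ m.val = g⁻¹ * x * g := by
      rw [← hn, hm, ZMod.val_natCast]
      conv_rhs => rw [← Nat.mod_add_div n p, pow_add, pow_mul, hxp, one_pow, mul_one]
    have hm0 : m ≠ 0 := by
      intro h
      rw [h, ZMod.val_zero, pow_zero] at hmn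
      have : x = 1 := by
        have h7 : g * (g⁻¹ * x * g) * g⁻¹ = x := by group
        rw [← hmn, mul_one, mul_inv_cancel] at h7
        exact h7.symm
      rw [this, orderOf_one] at hx
      omega
    set c := pc p F m with hc
    have hc0 : c ≠ 0 := pc_ne_zero hm0
    set A := τ g⁻¹ with hA
    have hAe : A *ᵥ ![0, 0, 1] = c • ![0, 0, 1] := hτ g⁻¹ m (by rw [inv_inv]; exact hmn.symm)
    have hrel : A * UU F = UU F ^ m.val * A := by
      have : g⁻¹ * x = x ^ m.val * g⁻¹ := by rw [hmn]; group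
      rw [← hτx, hA, ← map_mul, this, map_mul, map_pow]
    have hcm : c = (m.val : F) := by rw [hc, ← pc_natCast (p := p), ZMod.natCast_zmod_val]
    rw [UU_pow, ← hcm] at hrel
    have a02 : A 0 2 = 0 := by
      have := congrFun hAe 0
      simpa [Matrix.mulVec, dotProduct, Fin.sum_univ_three] using this
    have a12 : A 1 2 = 0 := by
      have := congrFun hAe 1
      simpa [Matrix.mulVec, dotProduct, Fin.sum_univ_three] using this
    have a22 : A 2 2 = c := by
      have := congrFun hAe 2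
      simpa [Matrix.mulVec, dotProduct, Fin.sum_univ_three] using this
    have r00 : A 0 0 + A 0 1 = A 0 0 := by
      have := congrFun (congrFun hrel 0) 0
      simpa [Matrix.mul_apply, Fin.sum_univ_three, UU] using this
    have a01 : A 0 1 = 0 := by simpa using r00
    have r10 : A 1 0 + A 1 1 = c * A 0 0 + A 1 0 := by
      have := congrFun (congrFun hrel 1) 0
      simpa [Matrix.mul_apply, Fin.sum_univ_three, UU] using this
    have a11 : A 1 1 = c * A 0 0 := by linear_combination r10
    have r21 : A 2 1 + A 2 2 = c * A 1 1 + A 2 1 := by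
      have := congrFun (congrFun hrel 2) 1
      simpa [Matrix.mul_apply, Fin.sum_univ_three, UU, a01] using this
    have a00 : c * A 0 0 = 1 := by
      have h9 : c = c * (c * A 0 0) := by rw [← a11]; linear_combination (-1 : F) * a22 + r21
      have h10 : c * 1 = c * (c * A 0 0) := by rw [mul_one]; exact h9
      exact (mul_left_cancel₀ hc0 h10).symm
    show ((τ g⁻¹)ᵀ * J0 * τ g⁻¹) *ᵥ ![0, 0, 1] = _
    rw [← hA, ← mulVec_mulVec, hAe, mulVec_smul, ← mulVec_mulVec]
    have hJe : J0 *ᵥ ![0, 0, 1] = ![1, 0, 0] := by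
      rw [hJ0, JJ]
      ext i
      fin_cases i <;> simp [Matrix.mulVec, dotProduct, Fin.sum_univ_three]
    rw [hJe]
    ext i
    fin_cases i
    · simpa [Matrix.mulVec, dotProduct, Fin.sum_univ_three] using a00
    · simp [Matrix.mulVec, dotProduct, Fin.sum_univ_three, a01]
    · simp [Matrix.mulVec, dotProduct, Fin.sum_univ_three, a02]
  rw [sum_congr rfl hterm, sum_const, ← Nat.cast_smul_eq_nsmul F] at hev
  set m0 : F := ((Fx x).card : F) with hm0
  have hm : m0 ≠ 0 := card_Fx x hx hsyl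
  set J : Matrix (Fin 3) (Fin 3) F := m0⁻¹ • tr x (gramRep τ) J0 with hJ
  have hJG : ∀ g, gramRep τ g J = J := fun g => by rw [hJ, map_smul, rho_tr hJ0x]
  have hJe : J *ᵥ ![0, 0, 1] = ![1, 0, 0] := by
    have h6 : ev J = ![1, 0, 0] := by
      rw [hJ, map_smul, hev, smul_smul, inv_mul_cancel₀ hm, one_smul]
    exact h6
  have hJs : Jᵀ = J := by
    rw [hJ, transpose_smul, tr, transpose_sum]
    congr 1
    refine sum_congr rfl fun q _ => ?_
    rw [gramRep_apply, transpose_mul, transpose_mul, transpose_transpose, mul_assoc]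
    have : J0ᵀ = J0 := by
      rw [hJ0, JJ]
      ext i j
      fin_cases i <;> fin_cases j <;> simp
    rw [this]
  have s01 : J 1 0 = J 0 1 := congrFun (congrFun hJs 0) 1
  have s02 : J 2 0 = J 0 2 := congrFun (congrFun hJs 0) 2
  have s12 : J 2 1 = J 1 2 := congrFun (congrFun hJs 1) 2
  have j02 : J 0 2 = 1 := by
    have := congrFun hJe 0
    simpa [Matrix.mulVec, dotProduct, Fin.sum_univ_three] using this
  have j12 : J 1 2 = 0 := by
    have := congrFun hJe 1
    simpa [Matrix.mulVec, dotProduct, Fin.sum_univ_three] using this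
  have j22 : J 2 2 = 0 := by
    have := congrFun hJe 2
    simpa [Matrix.mulVec, dotProduct, Fin.sum_univ_three] using this
  have hJx : (UU F)ᵀ * J * UU F = J := by
    have h6 := hJG x⁻¹
    rw [gramRep_apply, inv_inv, hτx] at h6
    exact h6
  have k01 := congrFun (congrFun hJx 0) 1
  have k00 := congrFun (congrFun hJx 0) 0
  simp [Matrix.mul_apply, Fin.sum_univ_three, UU, s01, s02, s12, j02, j12, j22] at k01 k00
  have j11 : J 1 1 = -1 := by linear_combination k01
  have j01 : J 0 1 = 1 / 2 := by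
    have : 2 * J 0 1 = 1 := by linear_combination k00 - j11
    field_simp
    linear_combination this
  have hJJ : J = JJ (J 0 0) := by
    rw [JJ]
    ext i j
    fin_cases i <;> fin_cases j <;> simp [s01, s02, s12, j01, j02, j11, j12, j22]
  refine ⟨J 0 0, fun g => ?_⟩
  have h6 := hJG g⁻¹
  rw [gramRep_apply, inv_inv] at h6
  rw [← hJJ]
  exact h6

end form

end Cfsg.Agent.Lib.FeitE
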