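import Mathlib
import Cfsg.Agent.Lib.FeitE
import Cfsg.Agent.Lib.AschMU

/-!
# The homomorphism to `PGL_2` attached to a three-dimensional orthogonal representation (helper78)
-/

set_option autoImplicit false
set_option linter.all false

namespace Cfsg.Agent.Lib.FeitF

open Matrix Cfsg.Agent.Lib.FeitE Cfsg.Agent.Lib.AschMU
open scoped Classical LinearAlgebra.Projectivization MatrixGroups

variable {F : Type*} [Field F]

/-- traceless matrices -/
def io (b : F) (v : Fin 3 → F) : Matrix (Fin 2) (Fin 2) F := !![v 1, b * v 0 - v 1 - 2 * v 2; v 0, -v 1]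

/-- the wedge product -/
def wd (b : F) (u v : Fin 3 → F) : Fin 3 → F :=
  ![u 0 * v 1 - u 1 * v 0, (1 / 2) * (u 0 * v 1 - u 1 * v 0) + (u 0 * v 2 - u 2 * v 0),
    b * (u 0 * v 1 - u 1 * v 0) + (u 1 * v 2 - u 2 * v 1) - (1 / 4) * (u 0 * v 1 - u 1 * v 0) -
      (1 / 2) * (u 0 * v 2 - u 2 * v 0)]

/-- the bilinear form -/
def bf (γ : F) (u v : Fin 3 → F) : F := u ⬝ᵥ (JJ γ *ᵥ v)

theorem bf_eq (γ : F) (u v : Fin 3 → F) : bf γ u v = γ * u 0 * v 0 + (1 / 2) * (u 0 * v 1 + u 1 * v 0) +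
    u 0 * v 2 + u 2 * v 0 - u 1 * v 1 := by
  simp [bf, JJ, Matrix.mulVec, dotProduct, Fin.sum_univ_three]
  ring

theorem io_mul (h2 : (2 : F) ≠ 0) (b : F) (u v : Fin 3 → F) :
    io b u * io b v = (-bf (-b) u v) • (1 : Matrix (Fin 2) (Fin 2) F) + io b (wd b u v) := by
  rw [bf_eq]
  have h4 : (4 : F) ≠ 0 := by
    have : (4 : F) = 2 * 2 := by norm_num
    rw [this]; exact mul_ne_zero h2 h2
  ext i j
  fin_cases i <;> fin_cases j <;>
    simp [io, wd, Matrix.mul_apply, Fin.sum_univ_two, Matrix.one_apply] <;> field_simp <;> ring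

theorem triple (h2 : (2 : F) ≠ 0) (b : F) (u v w : Fin 3 → F) :
    bf (-b) (wd b u v) w = (Matrix.of ![u, v, w]).det := by
  have h4 : (4 : F) ≠ 0 := by
    have : (4 : F) = 2 * 2 := by norm_num
    rw [this]; exact mul_ne_zero h2 h2
  rw [bf_eq, Matrix.det_fin_three]
  simp [wd]
  field_simp
  ring

theorem bf_nondeg {γ : F} {x : Fin 3 → F} (h : ∀ y, bf γ x y = 0) : x = 0 := by
  have e2 := h ![0, 0, 1]
  have e1 := h ![0, 1, 0]
  have e0 := h ![1, 0, 0]
  rw [bf_eq] at e0 e1 e2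
  simp at e0 e1 e2
  rw [e2] at e1 e0
  simp at e1
  rw [e1] at e0
  simp at e0
  ext i
  fin_cases i
  · exact e2
  · exact e1
  · exact e0

section iso

variable {γ : F} {A : Matrix (Fin 3) (Fin 3) F} (hA : Aᵀ * JJ γ * A = JJ γ)

include hA

theorem bf_map (u v : Fin 3 → F) : bf γ (A *ᵥ u) (A *ᵥ v) = bf γ u v := by
  rw [bf, bf]
  conv_rhs => rw [← hA]
  rw [← mulVec_mulVec, ← mulVec_mulVec, dotProduct_mulVec u, vecMul_transpose]

theorem det_sq : A.det * A.det = 1 := by
  have h1 := congrArg Matrix.det hA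
  rw [det_mul, det_mul, det_transpose] at h1
  have h2 : (JJ γ).det = 1 := by rw [det_fin_three]; simp [JJ]
  rw [h2] at h1
  linear_combination h1

theorem wd_map (h2 : (2 : F) ≠ 0) {b : F} (hb : γ = -b) (u v : Fin 3 → F) :
    wd b (A *ᵥ u) (A *ᵥ v) = A.det • (A *ᵥ (wd b u v)) := by
  have hd := det_sq hA
  subst hb
  have hrow : ∀ u v w : Fin 3 → F, Matrix.of ![A *ᵥ u, A *ᵥ v, A *ᵥ w] = Matrix.of ![u, v, w] * Aᵀ := by
    intro u v w
    ext i j
    fin_cases i <;>
      simp [Matrix.mulVec, dotProduct, Matrix.mul_apply, mul_comm]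
  rw [← sub_eq_zero]
  apply bf_nondeg (γ := -b)
  intro y
  obtain ⟨w, rfl⟩ : ∃ w, A *ᵥ w = y := by
    refine ⟨A⁻¹ *ᵥ y, ?_⟩
    have hu : IsUnit A.det := IsUnit.of_mul_eq_one _ hd
    rw [mulVec_mulVec, Matrix.mul_nonsing_inv A hu, one_mulVec]
  have h3 : bf (-b) (wd b (A *ᵥ u) (A *ᵥ v) - A.det • (A *ᵥ (wd b u v))) (A *ᵥ w) =
      bf (-b) (wd b (A *ᵥ u) (A *ᵥ v)) (A *ᵥ w) - A.det * bf (-b) (A *ᵥ (wd b u v)) (A *ᵥ w) := by
    rw [bf, bf, bf, sub_dotProduct, smul_dotProduct, smul_eq_mul]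
  rw [h3, triple h2, bf_map hA, triple h2, hrow, det_mul, det_transpose]
  ring

end iso

/-- the vector part -/
def vec (b : F) (m : Matrix (Fin 2) (Fin 2) F) : Fin 3 → F :=
  ![m 1 0, (m 0 0 - m 1 1) / 2, (b * m 1 0 - (m 0 0 - m 1 1) / 2 - m 0 1) / 2]

/-- the extension to all matrices -/
noncomputable def Phi (b : F) (A : Matrix (Fin 3) (Fin 3) F) (m : Matrix (Fin 2) (Fin 2) F) : Matrix (Fin 2) (Fin 2) F :=
  ((m 0 0 + m 1 1) / 2) • (1 : Matrix (Fin 2) (Fin 2) F) + A.det • io b (A *ᵥ vec b m)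

theorem io_add (b : F) (u v : Fin 3 → F) : io b (u + v) = io b u + io b v := by
  ext i j
  fin_cases i <;> fin_cases j <;> simp [io] <;> ring

theorem io_smul (b c : F) (v : Fin 3 → F) : io b (c • v) = c • io b v := by
  ext i j
  fin_cases i <;> fin_cases j <;> simp [io] <;> ring

theorem io_inj (h2 : (2 : F) ≠ 0) {b : F} {u v : Fin 3 → F} (h : io b u = io b v) : u = v := by
  have e0 := congrFun (congrFun h 1) 0
  have e1 := congrFun (congrFun h 0) 0
  have e2 := congrFun (congrFun h 0) 1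
  simp [io] at e0 e1 e2
  rw [e0, e1] at e2
  have e3 : 2 * u 2 = 2 * v 2 := by linear_combination -e2
  ext i
  fin_cases i
  · exact e0
  · exact e1
  · exact mul_left_cancel₀ h2 e3

theorem vec_io (h2 : (2 : F) ≠ 0) (b a : F) (v : Fin 3 → F) :
    vec b (a • (1 : Matrix (Fin 2) (Fin 2) F) + io b v) = v := by
  ext i
  fin_cases i <;> simp [vec, io] <;> field_simp <;> ring

theorem decomp (h2 : (2 : F) ≠ 0) (b : F) (m : Matrix (Fin 2) (Fin 2) F) :
    m = ((m 0 0 + m 1 1) / 2) • (1 : Matrix (Fin 2) (Fin 2) F) + io b (vec b m) := by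
  ext i j
  fin_cases i <;> fin_cases j <;> simp [vec, io] <;> field_simp <;> ring

theorem Phi_eq (h2 : (2 : F) ≠ 0) (b a : F) (A : Matrix (Fin 3) (Fin 3) F) (v : Fin 3 → F) :
    Phi b A (a • (1 : Matrix (Fin 2) (Fin 2) F) + io b v) = a • (1 : Matrix (Fin 2) (Fin 2) F) + A.det • io b (A *ᵥ v) := by
  rw [Phi, vec_io h2]
  congr 2
  simp [io]
  field_simp
  ring

theorem Phi_mul (h2 : (2 : F) ≠ 0) {γ : F} {A : Matrix (Fin 3) (Fin 3) F} (hA : Aᵀ * JJ γ * A = JJ γ) {b : F}
    (hb : γ = -b) (m m' : Matrix (Fin 2) (Fin 2) F) : Phi b A (m * m') = Phi b A m * Phi b A m' := by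
  have hd := det_sq hA
  rw [decomp h2 b m, decomp h2 b m', Phi_eq h2, Phi_eq h2]
  set a := (m 0 0 + m 1 1) / 2
  set a' := (m' 0 0 + m' 1 1) / 2
  set u := vec b m
  set v := vec b m'
  have h3 : (a • (1 : Matrix (Fin 2) (Fin 2) F) + io b u) * (a' • (1 : Matrix (Fin 2) (Fin 2) F) + io b v) =
      (a * a' - bf (-b) u v) • (1 : Matrix (Fin 2) (Fin 2) F) + io b (a • v + a' • u + wd b u v) := by
    rw [mul_add, add_mul, add_mul, io_mul h2, io_add, io_add, io_smul, io_smul]
    simp only [smul_mul_assoc, mul_smul_comm, one_mul, mul_one]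
    module
  have hbf : bf (-b) (A *ᵥ u) (A *ᵥ v) = bf (-b) u v := by rw [← hb]; exact bf_map hA u v
  rw [h3, Phi_eq h2, mul_add, add_mul, add_mul, mulVec_add, mulVec_add, mulVec_smul, mulVec_smul, io_add, io_add,
    io_smul, io_smul]
  have h4 : (A.det • io b (A *ᵥ u)) * (A.det • io b (A *ᵥ v)) = io b (A *ᵥ u) * io b (A *ᵥ v) := by
    rw [smul_mul_assoc, mul_smul_comm, smul_smul, hd, one_smul]
  rw [h4, io_mul h2, hbf, wd_map hA h2 hb, io_smul]
  simp only [smul_mul_assoc, mul_smul_comm, one_mul, mul_one]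
  module

theorem Phi_one (h2 : (2 : F) ≠ 0) (b : F) (A : Matrix (Fin 3) (Fin 3) F) : Phi b A 1 = 1 := by
  have h1 : (1 : Matrix (Fin 2) (Fin 2) F) = (1 : F) • (1 : Matrix (Fin 2) (Fin 2) F) + io b 0 := by
    have : io b (0 : Fin 3 → F) = 0 := by
      ext i j
      fin_cases i <;> fin_cases j <;> simp [io]
    rw [this, one_smul, add_zero]
  conv_lhs => rw [h1]
  rw [Phi_eq h2, mulVec_zero]
  have : io b (0 : Fin 3 → F) = 0 := by
    ext i j
    fin_cases i <;> fin_cases j <;> simp [io]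
  rw [this, smul_zero, one_smul, add_zero]

/-- the algebra endomorphism -/
noncomputable def PhiHom (h2 : (2 : F) ≠ 0) {γ : F} {A : Matrix (Fin 3) (Fin 3) F} (hA : Aᵀ * JJ γ * A = JJ γ) {b : F}
    (hb : γ = -b) : Matrix (Fin 2) (Fin 2) F →ₐ[F] Matrix (Fin 2) (Fin 2) F :=
  AlgHom.ofLinearMap
    { toFun := Phi b A
      map_add' := by
        intro m m'
        rw [decomp h2 b m, decomp h2 b m', Phi_eq h2, Phi_eq h2]
        generalize (m 0 0 + m 1 1) / 2 = a
        generalize (m' 0 0 + m' 1 1) / 2 = a'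
        generalize vec b m = u
        generalize vec b m' = v
        have h3 : a • (1 : Matrix (Fin 2) (Fin 2) F) + io b u + (a' • (1 : Matrix (Fin 2) (Fin 2) F) + io b v) =
            (a + a') • (1 : Matrix (Fin 2) (Fin 2) F) + io b (u + v) := by
          rw [io_add]; module
        rw [h3, Phi_eq h2, mulVec_add, io_add]
        module
      map_smul' := by
        intro c m
        rw [decomp h2 b m, Phi_eq h2]
        generalize (m 0 0 + m 1 1) / 2 = a
        generalize vec b m = u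
        have h3 : c • (a • (1 : Matrix (Fin 2) (Fin 2) F) + io b u) =
            (c * a) • (1 : Matrix (Fin 2) (Fin 2) F) + io b (c • u) := by
          rw [io_smul]; module
        rw [h3, Phi_eq h2, mulVec_smul, io_smul, RingHom.id_apply]
        module }
    (Phi_one h2 b A) (Phi_mul h2 hA hb)

theorem mk_eq_of_conj {P Q : GL (Fin 2) F}
    (h : ∀ m : Matrix (Fin 2) (Fin 2) F, (P : Matrix (Fin 2) (Fin 2) F) * m * ((P⁻¹ : GL (Fin 2) F) : Matrix (Fin 2) (Fin 2) F) =
      (Q : Matrix (Fin 2) (Fin 2) F) * m * ((Q⁻¹ : GL (Fin 2) F) : Matrix (Fin 2) (Fin 2) F)) :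
    (ProjGenLinGroup.mk P : PGL(Fin 2, F)) = ProjGenLinGroup.mk Q := by
  rw [← inv_mul_eq_one, ← map_inv, ← map_mul, ProjGenLinGroup.mk_eq_one, Subgroup.mem_center_iff]
  intro g
  apply Units.ext
  have h1 := h g
  have h2 := congrArg (fun t => ((P⁻¹ : GL (Fin 2) F) : Matrix (Fin 2) (Fin 2) F) * t * (Q : Matrix (Fin 2) (Fin 2) F)) h1
  have p1 : ((P⁻¹ : GL (Fin 2) F) : Matrix (Fin 2) (Fin 2) F) * (P : Matrix (Fin 2) (Fin 2) F) = 1 := by
    rw [← Units.val_mul, inv_mul_cancel, Units.val_one]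
  have q1 : ((Q⁻¹ : GL (Fin 2) F) : Matrix (Fin 2) (Fin 2) F) * (Q : Matrix (Fin 2) (Fin 2) F) = 1 := by
    rw [← Units.val_mul, inv_mul_cancel, Units.val_one]
  rw [← mul_assoc, ← mul_assoc, p1, one_mul] at h2
  rw [← mul_assoc, ← mul_assoc, mul_assoc (_ * _) _ (Q : Matrix (Fin 2) (Fin 2) F), q1, mul_one] at h2
  simp only [Units.val_mul]
  rw [← mul_assoc, h2]

/-- **the homomorphism** -/
theorem exists_theta (h2 : (2 : F) ≠ 0) {G : Type*} [Group G] {x : G} (τ : G →* Matrix (Fin 3) (Fin 3) F)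
    (hτx : τ x = UU F) {γ : F} (hγ : ∀ g, (τ g)ᵀ * JJ γ * τ g = JJ γ) :
    ∃ θ : G →* PGL(Fin 2, F), (∀ g, θ g = 1 → ∃ ε : F, ε * ε = 1 ∧ τ g = ε • (1 : Matrix (Fin 3) (Fin 3) F)) ∧
      ∀ w : ℙ F (Fin 2 → F), (∀ g, θ g • w = w) → ∀ g, ∃ c : F, τ g *ᵥ ![0, 0, 1] = c • ![0, 0, 1] := by
  set b := -γ with hb
  have hb' : γ = -b := by rw [hb, neg_neg]
  have hP : ∀ g, ∃ P : GL (Fin 2) F, ∀ m, Phi b (τ g) m =
      (P : Matrix (Fin 2) (Fin 2) F) * m * ((P⁻¹ : GL (Fin 2) F) : Matrix (Fin 2) (Fin 2) F) := by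
    intro g
    obtain ⟨P, hP⟩ := exists_conj_algEnd (PhiHom h2 (hγ g) hb')
    exact ⟨P, fun m => hP m⟩
  choose P hP using hP
  have hcomp : ∀ g h m, Phi b (τ (g * h)) m = Phi b (τ g) (Phi b (τ h) m) := by
    intro g h m
    rw [decomp h2 b m, Phi_eq h2, Phi_eq h2, ← io_smul b (τ h).det, Phi_eq h2, map_mul, det_mul, mulVec_smul,
      mulVec_mulVec, io_smul, smul_smul]
  let θ : G →* PGL(Fin 2, F) := MonoidHom.mk' (fun g => ProjGenLinGroup.mk (P g)) (by
    intro g h
    rw [← map_mul]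
    apply mk_eq_of_conj
    intro m
    rw [← hP, hcomp, hP, hP]
    rw [_root_.mul_inv_rev, Units.val_mul, Units.val_mul]
    simp only [mul_assoc])
  have hθ : ∀ g, θ g = ProjGenLinGroup.mk (P g) := fun g => rfl
  refine ⟨θ, ?_, ?_⟩
  · intro g hg
    have h3 : (ProjGenLinGroup.mk (P g) : PGL(Fin 2, F)) = 1 := hg
    rw [ProjGenLinGroup.mk_eq_one, Matrix.GeneralLinearGroup.mem_center_iff_val_mem_range_scalar] at h3
    obtain ⟨c, hc⟩ := h3
    have h4 : ∀ m, Phi b (τ g) m = m := by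
      intro m
      rw [hP, ← hc]
      have h5 : ((Matrix.scalar (Fin 2)) c) * m = m * ((Matrix.scalar (Fin 2)) c) :=
        (Matrix.scalar_commute c (fun r => mul_comm _ _) m).eq
      rw [h5, mul_assoc, hc, ← Units.val_mul, mul_inv_cancel, Units.val_one, mul_one]
    refine ⟨(τ g).det, det_sq (hγ g), ?_⟩
    have h5 : ∀ v, (τ g).det • (τ g *ᵥ v) = v := by
      intro v
      have h6 := h4 ((0 : F) • (1 : Matrix (Fin 2) (Fin 2) F) + io b v)
      rw [Phi_eq h2, zero_smul, zero_add, zero_add, ← io_smul] at h6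
      exact io_inj h2 h6
    have h6 : (τ g).det • τ g = 1 := by
      apply Matrix.toLin'.injective
      apply LinearMap.ext
      intro v
      rw [Matrix.toLin'_apply, Matrix.toLin'_apply, smul_mulVec, h5, one_mulVec]
    rw [← h6, smul_smul, det_sq (hγ g), one_smul]
  · intro w hw
    induction w using Projectivization.ind with
    | h v0 hv0 =>
    set f0 : Fin 2 → F := ![-v0 1, v0 0] with hf0
    set n : Matrix (Fin 2) (Fin 2) F := vecMulVec v0 f0 with hn
    have htr : (n 0 0 + n 1 1) / 2 = 0 := by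
      rw [hn, hf0]
      simp [vecMulVec_apply]
      left
      ring
    have hn1 : n = io b (vec b n) := by
      conv_lhs => rw [decomp h2 b n, htr, zero_smul, zero_add]
    set v1 := vec b n with hv1
    have hv1ne : v1 ≠ 0 := by
      intro h
      rw [h] at hn1
      have hz : n = 0 := by
        rw [hn1]
        ext i j
        fin_cases i <;> fin_cases j <;> simp [io]
      have e1 := congrFun (congrFun hz 0) 1
      have e2 := congrFun (congrFun hz 1) 0
      rw [hn, hf0] at e1 e2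
      simp [vecMulVec_apply] at e1 e2
      apply hv0
      ext i
      fin_cases i
      · exact e1
      · exact e2
    have key : ∀ g, ∃ c : F, τ g *ᵥ v1 = c • v1 := by
      intro g
      have h3 := hw g
      rw [hθ] at h3
      rw [Projectivization.PGL.mk_smul_mk, Projectivization.mk_eq_mk_iff'] at h3
      obtain ⟨μ, hμ⟩ := h3
      have hμ' : (P g : Matrix (Fin 2) (Fin 2) F) *ᵥ v0 = μ • v0 := hμ.symm
      have hμ0 : μ ≠ 0 := by
        rintro rfl
        rw [zero_smul] at hμ'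
        have h4 := congrArg (fun t => ((P g)⁻¹ : GL (Fin 2) F).1 *ᵥ t) hμ'
        simp only [mulVec_mulVec, mulVec_zero] at h4
        rw [← Units.val_mul, inv_mul_cancel, Units.val_one, one_mulVec] at h4
        exact hv0 h4
      -- the functional
      set f1 : Fin 2 → F := f0 ᵥ* ((P g)⁻¹ : GL (Fin 2) F).1 with hf1
      have hPinv : ((P g)⁻¹ : GL (Fin 2) F).1 *ᵥ v0 = μ⁻¹ • v0 := by
        have h4 := congrArg (fun t => ((P g)⁻¹ : GL (Fin 2) F).1 *ᵥ t) hμ'
        simp only [mulVec_mulVec, mulVec_smul] at h4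
        rw [← Units.val_mul, inv_mul_cancel, Units.val_one, one_mulVec] at h4
        conv_rhs => rw [h4, smul_smul, inv_mul_cancel₀ hμ0, one_smul]
      have hf1v : f1 ⬝ᵥ v0 = 0 := by
        rw [hf1, ← dotProduct_mulVec, hPinv, dotProduct_smul, hf0]
        simp [dotProduct, Fin.sum_univ_two]
        right
        ring
      obtain ⟨c, hc⟩ : ∃ c : F, f1 = c • f0 := by
        have e : f1 0 * v0 0 + f1 1 * v0 1 = 0 := by simpa [dotProduct, Fin.sum_univ_two] using hf1v
        by_cases h00 : v0 0 = 0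
        · have h01 : v0 1 ≠ 0 := by
            intro h01
            apply hv0
            ext i
            fin_cases i
            · exact h00
            · exact h01
          refine ⟨-(f1 0) / v0 1, ?_⟩
          rw [h00, mul_zero, zero_add] at e
          have e' : f1 1 = 0 := (mul_eq_zero.1 e).resolve_right h01
          ext i
          fin_cases i
          · simp [hf0]
            field_simp
          · simp [hf0, h00, e']
        · refine ⟨f1 1 / v0 0, ?_⟩
          ext i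
          fin_cases i
          · simp [hf0]
            field_simp
            linear_combination e
          · simp [hf0]
            field_simp
      have h4 : Phi b (τ g) n = (μ * c) • n := by
        rw [hP, hn, mul_vecMulVec, vecMulVec_mul, hμ', ← hf1, hc, smul_vecMulVec, vecMulVec_smul, smul_smul]
      have h5 : n = (0 : F) • (1 : Matrix (Fin 2) (Fin 2) F) + io b v1 := by rw [zero_smul, zero_add]; exact hn1
      rw [h5, Phi_eq h2, zero_smul, zero_add, zero_add, ← io_smul, ← io_smul] at h4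
      have h6 := io_inj h2 h4
      refine ⟨(τ g).det * (μ * c), ?_⟩
      rw [mul_smul, ← h6, smul_smul, det_sq (hγ g), one_smul]
    -- `v1` is a multiple of the last vector
    obtain ⟨c, hc⟩ := key x
    rw [hτx] at hc
    have c0 := congrFun hc 0
    have c1 := congrFun hc 1
    have c2 := congrFun hc 2
    simp [UU, Matrix.mulVec, dotProduct, Fin.sum_univ_three] at c0 c1 c2
    have z0 : v1 0 = 0 := by
      by_contra h
      have : c = 1 := by
        have h3 : (c - 1) * v1 0 = 0 := by linear_combination -c0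
        rcases mul_eq_zero.1 h3 with h4 | h4
        · exact sub_eq_zero.1 h4
        · exact absurd h4 h
      rw [this, one_mul] at c1
      apply h
      linear_combination c1
    have z1 : v1 1 = 0 := by
      by_contra h
      rw [z0, zero_add] at c1
      have : c = 1 := by
        have h3 : (c - 1) * v1 1 = 0 := by linear_combination -c1
        rcases mul_eq_zero.1 h3 with h4 | h4
        · exact sub_eq_zero.1 h4
        · exact absurd h4 h
      rw [this, one_mul] at c2
      apply h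
      linear_combination c2
    have z2 : v1 2 ≠ 0 := by
      intro h
      apply hv1ne
      ext i
      fin_cases i
      · exact z0
      · exact z1
      · exact h
    have hv : (![0, 0, 1] : Fin 3 → F) = (v1 2)⁻¹ • v1 := by
      ext i
      fin_cases i
      · simp [z0]
      · simp [z1]
      · simp [z2]
    intro g
    obtain ⟨c', hc'⟩ := key g
    refine ⟨c', ?_⟩
    rw [hv, mulVec_smul, hc', smul_comm]

end Cfsg.Agent.Lib.FeitF
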