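import Mathlib
import Cfsg.Agent.Lib.FeitF

/-!
# Feit's theorem, modular core: small faithful representations give a homomorphism to `PGL_2` (helper78)
-/

set_option autoImplicit false
set_option linter.all false

namespace Cfsg.Agent.Lib.FeitG

open Finset Module Cfsg.Agent.Lib.FeitA Cfsg.Agent.Lib.FeitB Cfsg.Agent.Lib.FeitC Cfsg.Agent.Lib.FeitD
  Cfsg.Agent.Lib.FeitE Cfsg.Agent.Lib.FeitF
open scoped Classical LinearAlgebra.Projectivization MatrixGroups

section grp

variable {p : ℕ} [hp : Fact p.Prime] {G : Type*} [Group G] [Finite G] {x : G}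

theorem mem_zpowers_of_commute (hx : orderOf x = p) (hsyl : ¬ p ^ 2 ∣ Nat.card G) {c : G} (hc : Commute c x)
    (hcp : c ^ p = 1) : c ∈ Subgroup.zpowers x := by
  have hdvd : p ∣ Nat.card G := by rw [← hx]; exact orderOf_dvd_natCard x
  have hfac : (Nat.card G).factorization p = 1 := by
    have h0 : Nat.card G ≠ 0 := Nat.card_pos.ne'
    apply le_antisymm
    · by_contra h
      exact hsyl ((hp.1.pow_dvd_iff_le_factorization h0).2 (by omega))
    · exact (hp.1.pow_dvd_iff_le_factorization h0).1 (by rwa [pow_one])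
  let P : Sylow p G := Sylow.ofCard (Subgroup.zpowers x) (by rw [Nat.card_zpowers, hx, hfac, pow_one])
  have hPc : (P : Subgroup G) = Subgroup.zpowers x := rfl
  have h1 : IsPGroup p (Subgroup.zpowers c) := by
    rintro ⟨g, k, rfl⟩
    refine ⟨1, ?_⟩
    apply Subtype.ext
    change (c ^ k) ^ (p ^ 1) = 1
    rw [pow_one, ← zpow_natCast, ← zpow_mul, mul_comm, zpow_mul, zpow_natCast, hcp, one_zpow]
  have h2 : IsPGroup p (Subgroup.zpowers c ⊔ Subgroup.zpowers x : Subgroup G) := by
    apply IsPGroup.to_sup_of_normal_right' h1 P.2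
    rw [Subgroup.zpowers_le]
    apply Subgroup.centralizer_le_normalizer
    rw [hPc, Subgroup.mem_centralizer_iff]
    rintro _ ⟨k, rfl⟩
    exact (hc.symm.zpow_left k).eq
  have h3 := P.3 h2 (by rw [hPc]; exact le_sup_right)
  have h4 : Subgroup.zpowers c ≤ Subgroup.zpowers x := by
    have h5 : Subgroup.zpowers c ⊔ Subgroup.zpowers x = Subgroup.zpowers x := h3
    rw [← h5]; exact le_sup_left
  exact h4 (Subgroup.mem_zpowers c)

theorem conj_mem (g : G) (h : g⁻¹ * x * g ∈ Subgroup.zpowers x) : g * x * g⁻¹ ∈ Subgroup.zpowers x := by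
  have h10 : (Subgroup.zpowers x).map (MulAut.conj g⁻¹).toMonoidHom ≤ Subgroup.zpowers x := by
    rw [MonoidHom.map_zpowers, Subgroup.zpowers_le]
    simpa using h
  have h11 : (Subgroup.zpowers x).map (MulAut.conj g⁻¹).toMonoidHom = Subgroup.zpowers x := by
    apply Subgroup.eq_of_le_of_card_ge h10
    rw [Subgroup.card_map_of_injective (MulAut.conj g⁻¹).injective]
  have h12 : x ∈ (Subgroup.zpowers x).map (MulAut.conj g⁻¹).toMonoidHom := by
    rw [h11]; exact Subgroup.mem_zpowers x
  obtain ⟨u, hu, hux⟩ := h12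
  have h13 : g⁻¹ * u * g = x := by simpa using hux
  have : g * x * g⁻¹ = u := by rw [← h13]; group
  rw [this]; exact hu

theorem exists_val (hxp : x ^ p = 1) {y : G} (hy : y ∈ Subgroup.zpowers x) : ∃ m : ZMod p, y = x ^ m.val := by
  obtain ⟨n, hn⟩ : ∃ n : ℕ, x ^ n = y := by
    have := (mem_zpowers_iff_mem_range_orderOf (x := x) (y := y)).1 hy
    obtain ⟨n, _, hn⟩ := Finset.mem_image.1 this
    exact ⟨n, hn⟩
  refine ⟨(n : ZMod p), ?_⟩
  rw [← hn, ZMod.val_natCast]
  conv_lhs => rw [← Nat.mod_add_div n p, pow_add, pow_mul, hxp, one_pow, mul_one]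

end grp

/-- `Q` as a linear map -/
noncomputable def Qlin {F A : Type*} [Field F] [Ring A] [Algebra F A] (z : A) (n : ℕ) : A →ₗ[F] A where
  toFun := Q z n
  map_add' a b := by
    rw [Q, Q, Q, ← sum_add_distrib]
    refine sum_congr rfl fun i _ => ?_
    rw [show z ^ i * (a + b) * z ^ (n - i) = z ^ i * a * z ^ (n - i) + z ^ i * b * z ^ (n - i) by noncomm_ring, smul_add]
  map_smul' c a := by
    rw [Q, Q, RingHom.id_apply, smul_sum]
    refine sum_congr rfl fun i _ => ?_
    rw [mul_smul_comm, smul_mul_assoc, smul_comm]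

section adv

variable {F A : Type*} [Field F] [Ring A] [Algebra F A]

/-- left multiplication -/
noncomputable def lf (F : Type*) {A : Type*} [Field F] [Ring A] [Algebra F A] (z : A) : Module.End F A := LinearMap.mulLeft F z
/-- right multiplication -/
noncomputable def rf (F : Type*) {A : Type*} [Field F] [Ring A] [Algebra F A] (z : A) : Module.End F A := LinearMap.mulRight F z

/-- `B ↦ z B v - B v z` -/
noncomputable def adv (F : Type*) {A : Type*} [Field F] [Ring A] [Algebra F A] (z v : A) : Module.End F A :=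
  (lf F z - rf F z) * rf F v

theorem lf_pow (z : A) (n : ℕ) : lf F z ^ n = lf F (z ^ n) := by
  rw [lf, lf]; exact LinearMap.pow_mulLeft F A z n

theorem rf_pow (z : A) (n : ℕ) : rf F z ^ n = rf F (z ^ n) := by
  rw [rf, rf]; exact LinearMap.pow_mulRight F A z n

theorem adv_pow {z v : A} (hzv : z * v = v * z) {m k : ℕ} (hz : z ^ m = 0) (h : m + m ≤ k + 1) : adv F z v ^ k = 0 := by
  have c1 : Commute (lf F z) (rf F (-z)) := by
    apply LinearMap.ext
    intro B
    show z * (B * (-z)) = z * B * (-z)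
    rw [mul_assoc]
  have z0 : lf F (0 : A) = 0 := by
    apply LinearMap.ext; intro B; show (0 : A) * B = 0; rw [zero_mul]
  have z0' : rf F (0 : A) = 0 := by
    apply LinearMap.ext; intro B; show B * (0 : A) = 0; rw [mul_zero]
  have e0 : lf F z - rf F z = lf F z + rf F (-z) := by
    apply LinearMap.ext
    intro B
    show z * B - B * z = z * B + B * (-z)
    rw [mul_neg, sub_eq_add_neg]
  have c2 : (lf F z - rf F z) ^ k = 0 := by
    rw [e0]
    apply c1.add_pow_eq_zero_of_add_le_succ_of_pow_eq_zero (m := m) (n := m)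
    · rw [lf_pow, hz, z0]
    · rw [rf_pow, neg_pow, hz, mul_zero, z0']
    · exact h
  have c3 : Commute (lf F z - rf F z) (rf F v) := by
    apply LinearMap.ext
    intro B
    show z * (B * v) - B * v * z = (z * B - B * z) * v
    rw [sub_mul, mul_assoc z, mul_assoc B, mul_assoc B, hzv]
  rw [adv, c3.mul_pow, c2, zero_mul]

end adv

variable {p : ℕ} [hp : Fact p.Prime] {F : Type*} [Field F] [CharP F p]
variable {V : Type*} [AddCommGroup V] [Module F V] [FiniteDimensional F V]
variable {G : Type*} [Group G] [Finite G]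

/-- **the modular core of Feit's theorem** -/
theorem core (h5 : 5 ≤ p) (ρ : Representation F G V) (hf : ∀ g, ρ g = 1 → g = 1) {x : G} (hx : orderOf x = p)
    (hsyl : ¬ p ^ 2 ∣ Nat.card G) (hd : 2 * finrank F V + 1 ≤ p) (hnn : ∃ g, g * x * g⁻¹ ∉ Subgroup.zpowers x) :
    ∃ θ : G →* PGL(Fin 2, F), (∀ g, θ g = 1 → Commute g x) ∧ (∀ g, θ g = 1 → g ^ p = 1 → g = 1) ∧
      ¬ ∃ w : ℙ F (Fin 2 → F), ∀ g, θ g • w = w := by
  have hp2 : p ≠ 2 := by omega
  have hxp : x ^ p = 1 := by rw [← hx, pow_orderOf_eq_one]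
  have hx1 : x ≠ 1 := by rintro rfl; rw [orderOf_one] at hx; omega
  have hnat : ∀ k : ℕ, 0 < k → k < p → (k : F) ≠ 0 := by
    intro k hk hkp h
    rw [CharP.cast_eq_zero_iff F p] at h
    exact absurd (Nat.le_of_dvd hk h) (by omega)
  have h2 : (2 : F) ≠ 0 := by exact_mod_cast hnat 2 (by norm_num) (by omega)
  have hinj : ∀ {a b : G}, ρ a = ρ b → a = b := by
    intro a b h
    have : ρ (a * b⁻¹) = 1 := by rw [map_mul, h, ← map_mul, mul_inv_cancel, map_one]
    exact mul_inv_eq_one.1 (hf _ this)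
  -- the unipotent element
  set u : Module.End F V := ρ x with hu
  set z : Module.End F V := u - 1 with hz
  have huz : u = 1 + z := by rw [hz]; abel
  have hzp : z ^ p = 0 := by
    haveI : CharP (Module.End F V) p ∨ Subsingleton (Module.End F V) := by
      rcases subsingleton_or_nontrivial (Module.End F V) with h | h
      · right; exact h
      · left; exact charP_of_injective_algebraMap (algebraMap F (Module.End F V)).injective p
    rcases this with h | h
    · haveI := h
      rw [hz, sub_pow_char_of_commute p (Commute.one_right u), one_pow, hu, ← map_pow, hxp, map_one, sub_self]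
    · exact Subsingleton.elim _ _
  have hz0 : z ≠ 0 := by
    intro h
    apply hx1
    apply hf
    rw [← hu, huz, h, add_zero]
  have hzd : z ^ finrank F V = 0 := by
    have hn : IsNilpotent z := ⟨p, hzp⟩
    have h6 := (LinearMap.isNilpotent_iff_charpoly z).1 hn
    have h7 := LinearMap.aeval_self_charpoly z
    rwa [h6, map_pow, Polynomial.aeval_X] at h7
  -- the nilpotency index
  obtain ⟨n, hn1, hn2, hn3⟩ : ∃ n, z ^ (n + 2) = 0 ∧ z ^ (n + 1) ≠ 0 ∧ n + 2 ≤ finrank F V := by
    have hex : ∃ s, z ^ s = 0 := ⟨_, hzd⟩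
    have hs := Nat.find_spec hex
    have hmin := @Nat.find_min _ _ hex
    have hle := Nat.find_min' hex hzd
    set s := Nat.find hex
    have hs2 : 2 ≤ s := by
      by_contra h
      have : s = 0 ∨ s = 1 := by omega
      rcases this with h | h
      · rw [h, pow_zero] at hs
        apply hz0
        rw [← mul_one z, hs, mul_zero]
      · rw [h, pow_one] at hs
        exact hz0 hs
    refine ⟨s - 2, ?_, ?_, by omega⟩
    · rw [Nat.sub_add_cancel hs2]; exact hs
    · have : s - 2 + 1 = s - 1 := by omega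
      rw [this]
      exact hmin (by omega)
  set K : ℤ := ∑ a ∈ range (n + 1), (((a : ℤ) + 1) * ((n : ℤ) + 1 - a)) with hK
  have hK0 : (K : F) ≠ 0 := by
    intro h
    have h6 := congrArg (Int.cast : ℤ → F) (sum_val n)
    rw [← hK] at h6
    push_cast at h6
    rw [h, mul_zero] at h6
    have e1 := hnat (n + 1) (by omega) (by omega)
    have e2 := hnat (n + 2) (by omega) (by omega)
    have e3 := hnat (n + 3) (by omega) (by omega)
    push_cast at e1 e2 e3
    exact mul_ne_zero (mul_ne_zero e1 e2) e3 h6.symm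
  -- the representation on `End V`
  set σ := conjRep ρ with hσ
  have hui : ρ x⁻¹ * u = 1 := sig_inv' ρ x
  have hui' : u * ρ x⁻¹ = 1 := sig_inv ρ x
  set v : Module.End F V := ρ x⁻¹ with hv
  have hzv : z * v = v * z := by rw [hz, sub_mul, mul_sub, hui, hui', one_mul, mul_one]
  have hσz : ∀ B, (σ x - 1) B = adz z (B * v) := by
    intro B
    have h6 : (σ x - 1) B = u * B * v - B := rfl
    rw [h6, adz_mul_right hzv, adz, huz, sub_mul, add_mul, one_mul, add_mul]
    have h7 : B * z * v = B - B * v := by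
      rw [mul_assoc, hzv, hz, mul_sub, mul_one, hui, mul_sub, mul_one]
    rw [h7]
    abel
  have hσz' : ∀ B, (σ x - 1) B = adz z B * v := fun B => by rw [hσz, adz_mul_right hzv]
  obtain ⟨f, hfl⟩ := exists_poly (p := p) (F := F) (A := Module.End F V) hp2
  set X : Module.End F V := lg p F u with hX
  have hXz : X = z + z * z * Polynomial.aeval z f := by rw [hX, huz]; exact hfl z
  set r := Polynomial.aeval z f with hr
  have hzr : z * r = r * z := (commute_aeval z f).eq
  have hσX : ∀ g, σ g X = lg p F (ρ (g * x * g⁻¹)) := by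
    intro g
    let U : (Module.End F V)ˣ := ⟨ρ g, ρ g⁻¹, sig_inv ρ g, sig_inv' ρ g⟩
    have h6 := lg_conj (p := p) (F := F) U u
    rw [map_mul, map_mul]
    exact h6.symm
  have hσXm : ∀ (g : G) (m : ZMod p), g * x * g⁻¹ = x ^ m.val → σ g X = pc p F m • X := by
    intro g m hg
    have hm : m ≠ 0 := by
      rintro rfl
      rw [ZMod.val_zero, pow_zero, mul_inv_eq_one] at hg
      exact hx1 (by simpa using hg)
    rw [hσX, hg, map_pow]
    exact lg_pow (by rw [← hu] at *; rw [hu, ← map_pow, hxp, map_one]) hm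
  have hXx : Commute u X := by
    rw [huz, hXz]
    refine (Commute.one_left _).add_left ?_
    exact (Commute.refl z).add_right (((Commute.refl z).mul_right (Commute.refl z)).mul_right (commute_aeval z f))
  have h3 : σ x X = X := by
    rw [hσ, conjRep_fix]
    exact hXx.eq
  have hX0 : X ≠ 0 := by
    intro h
    have h6 := Q_val z n hn1 r hzr
    rw [← hXz, h] at h6
    have h7 : Q z n 0 = 0 := (Qlin (F := F) z n).map_zero
    rw [h7, ← hK] at h6
    have h8 : (K : F) • z ^ (n + 1) = 0 := by rw [Int.cast_smul_eq_zsmul]; exact h6.symm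
    exact hn2 ((smul_eq_zero.1 h8).resolve_left hK0)
  -- the functional
  obtain ⟨μ, hμ⟩ := Module.Projective.exists_dual_eq_one F (x := (K : F) • z ^ (n + 1))
    (by rw [Ne, smul_eq_zero, not_or]; exact ⟨hK0, hn2⟩)
  let lam : Module.End F V →ₗ[F] F := μ.comp (Qlin z n)
  have h4 : ∀ w, lam ((σ x - 1) ((σ x - 1) ((σ x - 1) w))) = 0 := by
    intro w
    have e1 : (σ x - 1) ((σ x - 1) ((σ x - 1) w)) = adz z (adz z (adz z (w * v * v * v))) := by
      rw [hσz w, hσz (adz z (w * v)), ← adz_mul_right hzv, hσz, ← adz_mul_right hzv, ← adz_mul_right hzv]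
    rw [e1]
    show μ (Q z n _) = 0
    rw [Q_ad z n hn1, map_zero]
  have h5' : lam X = 1 := by
    show μ (Q z n X) = 1
    rw [hXz, Q_val z n hn1 r hzr, ← hK, ← Int.cast_smul_eq_zsmul F, hμ]
  -- the preimage
  obtain ⟨B, hB⟩ := exists_B h2 z ⟨n + 2, hn1⟩
  set w : Module.End F V := 1 + z * r with hw
  have hzw : z * w = w * z := by
    rw [hw, mul_add, add_mul, mul_one, one_mul, mul_assoc z r z, ← hzr]
  have hzu : z * u = u * z := by rw [huz, mul_add, add_mul, mul_one, one_mul]
  have hXw : X = z * w := by simp only [hXz, hw, mul_add, mul_one, mul_assoc]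
  set Y : Module.End F V := B * w * u * u with hY
  have h2' : (σ x - 1) ((σ x - 1) Y) = X := by
    have e1 : (σ x - 1) Y = adz z B * w * u := by
      rw [hσz', hY, adz_mul_right hzu, adz_mul_right hzu, adz_mul_right hzw, mul_assoc _ u v, hui', mul_one]
    rw [e1, hσz', adz_mul_right hzu, adz_mul_right hzw, hB, mul_assoc _ u v, hui', mul_one, ← hXw]
  -- nilpotency on `End V`
  have h1 : (σ x - 1) ^ (p - 1) = 0 := by
    have e1 : σ x - 1 = adv F z v := by
      apply LinearMap.ext
      intro B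
      rw [hσz]
      rfl
    rw [e1]
    exact adv_pow hzv hn1 (by omega)
  have h6 : ∀ g, g⁻¹ * x * g ∈ Subgroup.zpowers x → ∃ c : F, σ g X = c • X := by
    intro g hg
    obtain ⟨m, hm⟩ := exists_val (p := p) hxp (conj_mem g hg)
    exact ⟨_, hσXm g m hm⟩
  obtain ⟨L, hL, hXL, e, heL, hze, hsp⟩ := exists_L (p := p) (σ := σ) (X := X) (Y := Y) (lam := lam) hx hsyl h1 h2' h3 h4 h5' h6
  have hzX : (σ x - 1) X = 0 := by
    rw [LinearMap.sub_apply, h3, Module.End.one_apply, sub_self]
  obtain ⟨τ, hτx, hτ⟩ := exists_tau hL hXL hX0 heL hzX hze hsp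
  obtain ⟨γ, hγ⟩ := exists_form h5 hx hsyl τ hτx (fun g m hg => (hτ g _).2 (hσXm g m hg))
  obtain ⟨θ, hθ1, hθ2⟩ := exists_theta h2 τ hτx hγ
  -- elements acting trivially on `L`
  have htriv : ∀ c : G, τ c = 1 → Commute c x := by
    intro c hc
    have e1 : σ c X = (1 : F) • X := (hτ c 1).1 (by rw [hc, Matrix.one_mulVec, one_smul])
    rw [one_smul, hσ, conjRep_fix] at e1
    have e2 : Commute (ρ c) (lg p F (1 + z)) := by rw [← huz]; exact e1
    have e3 : Commute (ρ c) z := commute_of_lg (p := p) (F := F) hp2 hn1 e2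
    have e4 : Commute (ρ c) u := by rw [huz]; exact (Commute.one_right _).add_right e3
    apply hinj
    rw [map_mul, map_mul]
    exact e4.eq
  have hordp : ∀ c : G, τ c = 1 → c ^ p = 1 → c = 1 := by
    intro c hc hcp
    obtain ⟨m, hm⟩ := exists_val (p := p) hxp (mem_zpowers_of_commute hx hsyl (htriv c hc) hcp)
    rw [hm, map_pow, hτx, UU_pow] at hc
    have e1 : (m.val : F) = 0 := by
      have := congrFun (congrFun hc 1) 0
      simpa using this
    have e2 : m = 0 := by
      rw [← pc_natCast (p := p), ZMod.natCast_zmod_val] at e1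
      exact (pc p F).injective (by rw [e1, map_zero])
    rw [hm, e2, ZMod.val_zero, pow_zero]
  have hker : ∀ g, θ g = 1 → Commute g x := by
    intro g hg
    obtain ⟨ε, hε, hgε⟩ := hθ1 g hg
    set c := g * x * g⁻¹ * x⁻¹ with hc
    have hgi : τ g⁻¹ = ε • (1 : Matrix (Fin 3) (Fin 3) F) := by
      have e1 : τ g * τ g⁻¹ = 1 := by rw [← map_mul, mul_inv_cancel, map_one]
      rw [hgε, smul_mul_assoc, one_mul] at e1
      rw [← e1, smul_smul, hε, one_smul]
    have hτc : τ c = 1 := by
      rw [hc, map_mul, map_mul, map_mul, hgε, hgi, smul_mul_assoc, one_mul, mul_smul_comm, mul_one, smul_smul, hε,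
        one_smul, ← map_mul, mul_inv_cancel, map_one]
    have hcx := htriv c hτc
    have hcx' : c * x = g * x * g⁻¹ := by rw [hc]; group
    have hcp : c ^ p = 1 := by
      have e1 : (c * x) ^ p = 1 := by
        rw [hcx', conj_pow, hxp, mul_one, mul_inv_cancel]
      rwa [hcx.mul_pow, hxp, mul_one] at e1
    have hc1 := hordp c hτc hcp
    rw [hc1, one_mul] at hcx'
    show g * x = x * g
    conv_rhs => rw [hcx']
    group
  refine ⟨θ, hker, ?_, ?_⟩
  · intro g hg hgp
    obtain ⟨ε, hε, hgε⟩ := hθ1 g hg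
    obtain ⟨m, hm⟩ := exists_val (p := p) hxp (mem_zpowers_of_commute hx hsyl (hker g hg) hgp)
    rw [hm, map_pow, hτx, UU_pow] at hgε
    have e1 : (m.val : F) = 0 := by
      have := congrFun (congrFun hgε 1) 0
      simpa using this
    have e2 : m = 0 := by
      rw [← pc_natCast (p := p), ZMod.natCast_zmod_val] at e1
      exact (pc p F).injective (by rw [e1, map_zero])
    rw [hm, e2, ZMod.val_zero, pow_zero]
  · rintro ⟨w, hw⟩
    obtain ⟨g, hg⟩ := hnn
    apply hg
    obtain ⟨c, hc⟩ := hθ2 w hw g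
    have e1 : σ g X = c • X := (hτ g c).1 hc
    rw [hσX] at e1
    set x' := g * x * g⁻¹ with hx'
    have hx'p : x' ^ p = 1 := by rw [hx', conj_pow, hxp, mul_one, mul_inv_cancel]
    set z' : Module.End F V := ρ x' - 1 with hz'
    have hz'' : ρ x' = 1 + z' := by rw [hz']; abel
    have hz'n : z' ^ (n + 2) = 0 := by
      have e2 : z' = ρ g * z * ρ g⁻¹ := by
        rw [hz', hx', map_mul, map_mul, hz, mul_sub, sub_mul, mul_one, sig_inv]
      let U : (Module.End F V)ˣ := ⟨ρ g, ρ g⁻¹, sig_inv ρ g, sig_inv' ρ g⟩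
      have e3 : z' = (U : Module.End F V) * z * ((U⁻¹ : (Module.End F V)ˣ) : Module.End F V) := e2
      rw [e3, Units.conj_pow, hn1, mul_zero, zero_mul]
    have e2 : Commute u (lg p F (1 + z')) := by
      rw [← hz'', e1]
      exact hXx.smul_right c
    have e3 : Commute u z' := commute_of_lg (p := p) (F := F) hp2 hz'n e2
    have e4 : Commute u (ρ x') := by rw [hz'']; exact (Commute.one_right _).add_right e3
    have e5 : Commute x' x := by
      apply hinj
      rw [map_mul ρ x' x, map_mul ρ x x']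
      exact e4.eq.symm
    exact mem_zpowers_of_commute hx hsyl e5 hx'p

end Cfsg.Agent.Lib.FeitG
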