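import Mathlib
import Cfsg.Agent.Lib.FeitG
import Cfsg.Agent.Lib.MobDickson
import Cfsg.Agent.Lib.ClSeven

/-!
# Feit's theorem: consequences of Dickson's theorem (helper78)
-/

set_option autoImplicit false
set_option linter.all false

namespace Cfsg.Agent.Lib.FeitH

open Finset Module Matrix Cfsg.Agent.Lib.FeitG Cfsg.Agent.Lib.MobCount Cfsg.Agent.Lib.ClSL2
open scoped Classical LinearAlgebra.Projectivization MatrixGroups

section grp

variable {p : ℕ} [hp : Fact p.Prime] {G : Type*} [Group G] [Finite G] {x : G}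

theorem exists_conj (hx : orderOf x = p) (hsyl : ¬ p ^ 2 ∣ Nat.card G) {y : G} (hy : y ^ p = 1) :
    ∃ h : G, h⁻¹ * y * h ∈ Subgroup.zpowers x := by
  have hdvd : p ∣ Nat.card G := by rw [← hx]; exact orderOf_dvd_natCard x
  have hfac : (Nat.card G).factorization p = 1 := by
    have h0 : Nat.card G ≠ 0 := Nat.card_pos.ne'
    apply le_antisymm
    · by_contra h
      exact hsyl ((hp.1.pow_dvd_iff_le_factorization h0).2 (by omega))
    · exact (hp.1.pow_dvd_iff_le_factorization h0).1 (by rwa [pow_one])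
  let P : Sylow p G := Sylow.ofCard (Subgroup.zpowers x) (by rw [Nat.card_zpowers, hx, hfac, pow_one])
  have h1 : IsPGroup p (Subgroup.zpowers y) := by
    rintro ⟨g, k, rfl⟩
    refine ⟨1, ?_⟩
    apply Subtype.ext
    change (y ^ k) ^ (p ^ 1) = 1
    rw [pow_one, ← zpow_natCast, ← _root_.zpow_mul, mul_comm, _root_.zpow_mul, zpow_natCast, hy, _root_.one_zpow]
  obtain ⟨Q, hQ⟩ := h1.exists_le_sylow
  obtain ⟨h, hh⟩ := MulAction.exists_smul_eq G P Q
  refine ⟨h, ?_⟩
  have h2 : y ∈ (Q : Subgroup G) := hQ (Subgroup.mem_zpowers y)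
  rw [← hh, Sylow.coe_subgroup_smul, Subgroup.mem_pointwise_smul_iff_inv_smul_mem] at h2
  have h3 : (MulAut.conj h)⁻¹ • y = h⁻¹ * y * h := by
    rw [← map_inv]; show h⁻¹ * y * h⁻¹⁻¹ = _; rw [inv_inv]
  rw [h3] at h2
  exact h2

variable {K : Type*} [Group K]

/-- lifting relations through a homomorphism with `p'`-kernel centralizing `x` -/
theorem lift (hx : orderOf x = p) (hsyl : ¬ p ^ 2 ∣ Nat.card G) (θ : G →* K)
    (h1 : ∀ g, θ g = 1 → Commute g x) (h2 : ∀ g, θ g = 1 → g ^ p = 1 → g = 1) {u d : G} {m : ZMod p}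
    (hu : θ u ≠ 1) (hup : θ u ^ p = 1) (hd : θ d * θ u * (θ d)⁻¹ = θ u ^ m.val) :
    ∃ g : G, g * x * g⁻¹ = x ^ m.val := by
  have hxp : x ^ p = 1 := by rw [← hx, pow_orderOf_eq_one]
  have hdvd : p ∣ Nat.card G := by rw [← hx]; exact orderOf_dvd_natCard x
  obtain ⟨m', hm'⟩ := hdvd
  have hcop : Nat.Coprime m' p := by
    rw [Nat.coprime_comm, hp.1.coprime_iff_not_dvd]
    rintro ⟨k, rfl⟩
    apply hsyl
    exact ⟨k, by rw [hm']; ring⟩
  obtain ⟨b, hb⟩ : ∃ b : ℕ, θ u ^ (m' * b) = θ u := by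
    obtain ⟨b, hb⟩ := Nat.exists_mul_mod_eq_one_of_coprime hcop hp.1.one_lt
    refine ⟨b, ?_⟩
    conv_lhs => rw [← Nat.mod_add_div (m' * b) p, hb.2, pow_add, pow_mul, hup, one_pow, mul_one, pow_one]
  set u1 := u ^ (m' * b) with hu1
  have hθu1 : θ u1 = θ u := by rw [hu1, map_pow, hb]
  have hu1p : u1 ^ p = 1 := by
    rw [hu1, ← pow_mul, show m' * b * p = (p * m') * b by ring, ← hm', pow_mul, pow_card_eq_one', one_pow]
  obtain ⟨h, hh⟩ := exists_conj hx hsyl hu1p
  obtain ⟨j, hj⟩ := exists_val (p := p) hxp hh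
  have hu1' : u1 = h * x ^ j.val * h⁻¹ := by rw [← hj]; group
  have hj0 : j ≠ 0 := by
    rintro rfl
    rw [ZMod.val_zero, pow_zero, mul_one, mul_inv_cancel] at hu1'
    rw [hu1', map_one] at hθu1
    exact hu hθu1.symm
  set d' := h⁻¹ * d * h with hd'
  set y := x ^ j.val with hy
  have hyp : y ^ p = 1 := by rw [hy, ← pow_mul, mul_comm, pow_mul, hxp, one_pow]
  -- the relation modulo the kernel
  set r := (y ^ m.val)⁻¹ * (d' * y * d'⁻¹) with hr
  have hθr : θ r = 1 := by
    have e1 : θ h * θ y * (θ h)⁻¹ = θ u := by rw [← hθu1, hu1', map_mul, map_mul, map_inv]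
    have e2 : θ y = (θ h)⁻¹ * θ u * θ h := by rw [← e1]; group
    have e3 : θ (d' * y * d'⁻¹) = θ y ^ m.val := by
      rw [hd']
      simp only [map_mul, map_inv]
      rw [e2]
      have e4 : (θ h)⁻¹ * θ d * θ h * ((θ h)⁻¹ * θ u * θ h) * ((θ h)⁻¹ * θ d * θ h)⁻¹ =
          (θ h)⁻¹ * (θ d * θ u * (θ d)⁻¹) * θ h := by group
      rw [e4, hd]
      have e5 := conj_pow (i := m.val) (a := (θ h)⁻¹) (b := θ u)
      rw [inv_inv] at e5
      exact e5.symm
    rw [hr, map_mul, map_inv, e3, map_pow, inv_mul_cancel]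
  have hry : Commute r y := (h1 r hθr).pow_right _
  have hdy : d' * y * d'⁻¹ = y ^ m.val * r := by rw [hr]; group
  have hrp : r ^ p = 1 := by
    have e1 : (y ^ m.val * r) ^ p = 1 := by rw [← hdy, conj_pow, hyp, mul_one, mul_inv_cancel]
    rw [((hry.pow_right m.val).symm).mul_pow, ← pow_mul, mul_comm, pow_mul, hyp, one_pow, one_mul] at e1
    exact e1
  have hr1 := h2 r hθr hrp
  rw [hr1, mul_one] at hdy
  refine ⟨d', ?_⟩
  -- raise to the inverse power
  have e1 : x = y ^ (j⁻¹).val := by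
    rw [hy, ← FeitB.pow_val_mul hxp, mul_inv_cancel₀ hj0, ZMod.val_one, pow_one]
  have e2 : d' * x * d'⁻¹ = (d' * y * d'⁻¹) ^ (j⁻¹).val := by
    conv_lhs => rw [e1]
    rw [conj_pow]
  rw [e2, hdy, ← pow_mul, mul_comm, pow_mul, ← e1]

end grp

section mats

variable {k : Type*} [Field k]

theorem uG_mul (a b : k) : uG a * uG b = uG (a + b) := by
  apply Units.ext
  ext i j
  fin_cases i <;> fin_cases j <;> simp [uG, Matrix.mul_apply, Fin.sum_univ_two, add_comm]

theorem uG_zero : uG (0 : k) = 1 := by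
  apply Units.ext
  ext i j
  fin_cases i <;> fin_cases j <;> simp [uG]

theorem uG_pow (n : ℕ) (a : k) : uG a ^ n = uG (n * a) := by
  induction n with
  | zero => rw [pow_zero, Nat.cast_zero, zero_mul, uG_zero]
  | succ n ih => rw [pow_succ, ih, uG_mul]; push_cast; congr 1; ring

theorem uG_center {a : k} (h : uG a ∈ Subgroup.center (GL (Fin 2) k)) : a = 0 := by
  rw [Matrix.GeneralLinearGroup.mem_center_iff_val_mem_range_scalar] at h
  obtain ⟨c, hc⟩ := h
  have := congrFun (congrFun hc 0) 1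
  simp [uG] at this
  exact this.symm

/-- diagonal elements of `SL_2` -/
noncomputable def DS (t : k) (ht : t ≠ 0) : SL(2, k) := ⟨!![t, 0; 0, t⁻¹], by
  rw [det_fin_two]; simp [ht]⟩

/-- diagonal elements of `GL_2` -/
noncomputable def DG (t : k) (ht : t ≠ 0) : GL (Fin 2) k := GeneralLinearGroup.mkOfDetNeZero !![t, 0; 0, 1] (by
  rw [det_fin_two]; simp [ht])

theorem DS_conj (t : k) (ht : t ≠ 0) : SpecialLinearGroup.toGL (DS t ht) * uG 1 * (SpecialLinearGroup.toGL (DS t ht))⁻¹ =
    uG (t * t) := by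
  rw [mul_inv_eq_iff_eq_mul]
  apply Units.ext
  have hc : ((SpecialLinearGroup.toGL (DS t ht) : GL (Fin 2) k) : Matrix (Fin 2) (Fin 2) k) = !![t, 0; 0, t⁻¹] := rfl
  rw [Units.val_mul, Units.val_mul, hc]
  ext i j
  fin_cases i <;> fin_cases j <;> simp [uG, Matrix.mul_apply, Fin.sum_univ_two, ht, mul_assoc]

theorem DG_conj (t : k) (ht : t ≠ 0) : DG t ht * uG 1 * (DG t ht)⁻¹ = uG t := by
  rw [mul_inv_eq_iff_eq_mul]
  apply Units.ext
  ext i j
  fin_cases i <;> fin_cases j <;> simp [uG, DG, Matrix.mul_apply, Fin.sum_univ_two, GeneralLinearGroup.mkOfDetNeZero]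

end mats

section main

variable {p : ℕ} [hp : Fact p.Prime] {F : Type*} [Field F] [Fintype F] [CharP F p]
variable {G : Type*} [Group G] [Finite G] {x : G}

theorem pgl_mem {k : Type*} [Field k] (σ : k →+* F) (A : GL (Fin 2) k) :
    ProjGenLinGroup.map (n := Fin 2) σ (ProjGenLinGroup.mk A) ∈ (ProjGenLinGroup.map (n := Fin 2) σ).range := ⟨_, rfl⟩

theorem psl_mem {k : Type*} [Field k] (σ : k →+* F) (S : SL(2, k)) :
    ProjGenLinGroup.map (n := Fin 2) σ (ProjGenLinGroup.mk (SpecialLinearGroup.toGL S)) ∈ (pslMap σ).range := by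
  refine ⟨(S : ProjectiveSpecialLinearGroup (Fin 2) k), ?_⟩
  rw [pslMap, MonoidHom.comp_apply, ProjectiveSpecialLinearGroup.toPGL_mk]

theorem psl_le {k : Type*} [Field k] (σ : k →+* F) : (pslMap σ).range ≤ (ProjGenLinGroup.map (n := Fin 2) σ).range := by
  rintro _ ⟨s, rfl⟩
  rw [pslMap, MonoidHom.comp_apply]
  exact ⟨_, rfl⟩

/-- the relations in the image -/
theorem rel (h5 : 5 ≤ p) (θ : G →* PGL(Fin 2, F)) (h1 : ∀ g, θ g = 1 → Commute g x) (h2 : ∀ g, θ g = 1 → g ^ p = 1 → g = 1)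
    (hx : orderOf x = p) (hsyl : ¬ p ^ 2 ∣ Nat.card G) {g0 : PGL(Fin 2, F)} {k : Type*} [Field k] [CharP k p]
    (σ : k →+* F) {R : Subgroup PGL(Fin 2, F)} (hR : θ.range.map (MulAut.conj g0).toMonoidHom = R)
    (hRk : (pslMap σ).range ≤ R) {D : GL (Fin 2) k}
    (hD : ProjGenLinGroup.map (n := Fin 2) σ (ProjGenLinGroup.mk D) ∈ R) {c : ZMod p}
    (hDc : D * uG 1 * D⁻¹ = uG (c.val : k)) : ∃ g, g * x * g⁻¹ = x ^ c.val := by
  set φ : GL (Fin 2) k →* PGL(Fin 2, F) := (ProjGenLinGroup.map (n := Fin 2) σ).comp ProjGenLinGroup.mk with hφ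
  have hφ1 : ∀ A, φ A = 1 → A ∈ Subgroup.center (GL (Fin 2) k) := by
    intro A hA
    have h3 : ProjGenLinGroup.map (n := Fin 2) σ (ProjGenLinGroup.mk A) = ProjGenLinGroup.map (n := Fin 2) σ 1 := by
      rw [map_one]; exact hA
    have h4 := map_PGL_injective σ h3
    rwa [ProjGenLinGroup.mk_eq_one] at h4
  have hex : ∀ A, φ A ∈ R → ∃ a : G, g0 * θ a * g0⁻¹ = φ A := by
    intro A hA
    rw [← hR] at hA
    obtain ⟨_, ⟨a, rfl⟩, ha⟩ := hA
    exact ⟨a, ha⟩
  obtain ⟨u, hu⟩ := hex (uG 1) (hRk (by rw [← toGL_uS]; exact psl_mem σ _))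
  obtain ⟨d, hd⟩ := hex D hD
  have hu' : θ u = g0⁻¹ * φ (uG 1) * g0 := by rw [← hu]; group
  have hd' : θ d = g0⁻¹ * φ D * g0 := by rw [← hd]; group
  have hpow : ∀ (n : ℕ), (g0⁻¹ * φ (uG 1) * g0) ^ n = g0⁻¹ * φ (uG (n : k)) * g0 := by
    intro n
    have h3 := conj_pow (i := n) (a := g0⁻¹) (b := φ (uG 1))
    rw [inv_inv] at h3
    rw [h3, ← map_pow, uG_pow, mul_one]
  apply lift hx hsyl θ h1 h2 (u := u) (d := d)
  · intro h
    have h3 : φ (uG 1) = 1 := by rw [← hu, h, mul_one, mul_inv_cancel]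
    exact one_ne_zero (uG_center (hφ1 _ h3))
  · rw [hu', hpow, CharP.cast_eq_zero, uG_zero, map_one, mul_one, inv_mul_cancel]
  · rw [hu', hpow, hd', ← hDc, map_mul, map_mul, map_inv]
    group

theorem struct (h5 : 5 ≤ p) (θ : G →* PGL(Fin 2, F)) (h1 : ∀ g, θ g = 1 → Commute g x)
    (h2 : ∀ g, θ g = 1 → g ^ p = 1 → g = 1) (h3 : ¬ ∃ w : ℙ F (Fin 2 → F), ∀ g, θ g • w = w)
    (hx : orderOf x = p) (hsyl : ¬ p ^ 2 ∣ Nat.card G) :
    ((∀ t : ZMod p, t ≠ 0 → ∃ g : G, g * x * g⁻¹ = x ^ (t * t).val) ∧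
      Nonempty (θ.range ≃* ProjectiveSpecialLinearGroup (Fin 2) (ZMod p))) ∨
    (∀ t : ZMod p, t ≠ 0 → ∃ g : G, g * x * g⁻¹ = x ^ t.val) := by
  have hxp : x ^ p = 1 := by rw [← hx, pow_orderOf_eq_one]
  have hx1 : x ≠ 1 := by rintro rfl; rw [orderOf_one] at hx; omega
  have hθx : orderOf (θ x) = p := by
    apply orderOf_eq_prime
    · rw [← map_pow, hxp, map_one]
    · intro h
      exact hx1 (h2 x h hxp)
  have hdvd : p ∣ Nat.card θ.range := by
    have h4 : orderOf (⟨θ x, x, rfl⟩ : θ.range) = p := by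
      rw [← hθx]
      exact (orderOf_injective θ.range.subtype θ.range.subtype_injective _).symm
    rw [← h4]
    exact orderOf_dvd_natCard _
  haveI : Finite θ.range := Finite.of_surjective θ.rangeRestrict θ.rangeRestrict_surjective
  rcases dickson (p := p) θ.range.subtype θ.range.subtype_injective with h | h | h | h | h | h | h
  · exact absurd hdvd h.1
  · obtain ⟨C, _, hC, hcard, _⟩ := h
    exfalso
    rw [hcard] at hdvd
    rcases (hp.1.dvd_mul).1 hdvd with h4 | h4
    · have := Nat.le_of_dvd (by norm_num) h4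
      omega
    · exact hC h4
  · exact absurd hdvd h.1
  · exact absurd hdvd h.1
  · rcases h.1 with h4 | h4
    · exact absurd hdvd h4
    · omega
  · obtain ⟨_, w, hw⟩ := h
    exact absurd ⟨w, fun g => hw ⟨θ g, g, rfl⟩⟩ h3
  · obtain ⟨g0, k, hk⟩ := h
    rw [Subgroup.range_subtype] at hk
    haveI : CharP k p := charP_of_injective_algebraMap (R := k) (A := F) (algebraMap k F).injective p |> fun _ => by
      exact (algebraMap k F).charP (algebraMap k F).injective p
    haveI : Fintype k := Fintype.ofFinite k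
    have hval : ∀ t : ZMod p, FeitB.pc p k t = (t.val : k) := by
      intro t
      rw [← FeitB.pc_natCast (p := p), ZMod.natCast_zmod_val]
    obtain ⟨R, hR⟩ : ∃ R, R = θ.range.map (MulAut.conj g0).toMonoidHom := ⟨_, rfl⟩
    have hRk : (pslMap k.subtype).range ≤ R := by
      rcases hk with hk | hk
      · rw [hR, hk]
      · rw [hR, hk]; exact psl_le _
    -- the cardinality of `k`
    have hkcard : Fintype.card k = p := by
      let f : Multiplicative k →* PGL(Fin 2, F) :=
        { toFun := fun b => ProjGenLinGroup.map (n := Fin 2) k.subtype (ProjGenLinGroup.mk (uG (Multiplicative.toAdd b)))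
          map_one' := by
            show ProjGenLinGroup.map (n := Fin 2) k.subtype (ProjGenLinGroup.mk (uG 0)) = 1
            rw [uG_zero, map_one, map_one]
          map_mul' := by
            intro a b
            show ProjGenLinGroup.map (n := Fin 2) k.subtype (ProjGenLinGroup.mk (uG (Multiplicative.toAdd a + Multiplicative.toAdd b))) = _
            rw [← uG_mul, map_mul, map_mul] }
      have hf : Function.Injective f := by
        rw [injective_iff_map_eq_one]
        intro a ha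
        have h4 : ProjGenLinGroup.map (n := Fin 2) k.subtype (ProjGenLinGroup.mk (uG (Multiplicative.toAdd a))) =
            ProjGenLinGroup.map (n := Fin 2) k.subtype 1 := by rw [map_one]; exact ha
        have h5 := map_PGL_injective k.subtype h4
        rw [ProjGenLinGroup.mk_eq_one] at h5
        exact uG_center h5
      have h4 : f.range ≤ R := by
        rintro _ ⟨b, rfl⟩
        apply hRk
        show ProjGenLinGroup.map (n := Fin 2) k.subtype (ProjGenLinGroup.mk (uG (Multiplicative.toAdd b))) ∈ _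
        rw [← toGL_uS]
        exact psl_mem _ _
      have h6 : Fintype.card k ∣ Nat.card G := by
        have e1 : Nat.card f.range = Fintype.card k := by
          rw [← Nat.card_eq_fintype_card]
          exact (Nat.card_congr (MonoidHom.ofInjective hf).toEquiv).symm
        rw [← e1]
        refine (Subgroup.card_dvd_of_le h4).trans ?_
        rw [hR, Subgroup.card_map_of_injective (MulAut.conj g0).injective]
        exact Subgroup.card_range_dvd θ
      obtain ⟨n, -, hn⟩ := FiniteField.card k p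
      rw [hn] at h6 ⊢
      have hn1 : (n : ℕ) = 1 := by
        by_contra h
        have : 2 ≤ (n : ℕ) := by have := n.pos; omega
        exact hsyl ((pow_dvd_pow p this).trans h6)
      rw [hn1, pow_one]
    rcases hk with hk | hk
    · left
      refine ⟨fun t ht => ?_, ?_⟩
      · have ht' : (t.val : k) ≠ 0 := by rw [← hval]; exact FeitB.pc_ne_zero ht
        refine rel h5 θ h1 h2 hx hsyl k.subtype hR.symm hRk (D := SpecialLinearGroup.toGL (DS (t.val : k) ht'))
          (hRk (psl_mem _ _)) ?_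
        rw [DS_conj, ← hval, ← hval, map_mul]
      · let e1 : θ.range ≃* θ.range.map (MulAut.conj g0).toMonoidHom :=
          θ.range.equivMapOfInjective _ (MulAut.conj g0).injective
        rw [hk] at e1
        have e2 : ProjectiveSpecialLinearGroup (Fin 2) k ≃* (pslMap k.subtype).range :=
          MonoidHom.ofInjective (pslMap_injective _)
        have e3 : k ≃+* ZMod p := FiniteField.ringEquivOfCardEq (by rw [hkcard, ZMod.card])
        exact ⟨(e1.trans e2.symm).trans (ClSeven.pslCongr 2 e3)⟩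
    · right
      intro t ht
      have ht' : (t.val : k) ≠ 0 := by rw [← hval]; exact FeitB.pc_ne_zero ht
      refine rel h5 θ h1 h2 hx hsyl k.subtype hR.symm hRk (D := DG (t.val : k) ht') ?_ ?_
      · rw [hR, hk]; exact pgl_mem _ _
      · exact DG_conj _ _

end main

end Cfsg.Agent.Lib.FeitH
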