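import Mathlib

/-!
# Reduction modulo `p` of a complex matrix representation

For a finite group `G` and `ρ : G →* Matrix (Fin n) (Fin n) ℂ` there is a finite field `F` of
characteristic `p` and `ρ' : G →* Matrix (Fin n) (Fin n) F` such that every element of order prime
to `p` in the kernel of `ρ'` is in the kernel of `ρ`.
-/

set_option autoImplicit false

namespace Cfsg.Agent.Lib.FeitR

open Matrix

/-- every finite matrix group over the field of fractions of a valuation ring is conjugate to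
a group of matrices over that ring -/
theorem exists_int {K : Type*} [Field K] {G : Type*} [Group G] [Finite G] {n : ℕ}
    (ρ : G →* Matrix (Fin n) (Fin n) K) (V : ValuationSubring K) :
    ∃ T T' : Matrix (Fin n) (Fin n) K, T' * T = 1 ∧ T * T' = 1 ∧
      ∀ g i j, (T' * ρ g * T) i j ∈ V := by
  classical
  let M : (Fin n → G × Fin n) → Matrix (Fin n) (Fin n) K :=
    fun f => Matrix.of (fun i j => ρ (f j).1 i (f j).2)
  haveI : Nonempty (Fin n → G × Fin n) := ⟨fun j => (1, j)⟩
  obtain ⟨f, hf⟩ := Finite.exists_max (fun f : Fin n → G × Fin n => V.valuation (M f).det)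
  have h1 : M (fun j => (1, j)) = 1 := by
    ext i j
    simp [M]
  have hdet : (M f).det ≠ 0 := by
    intro h0
    have := hf (fun j => (1, j))
    simp only [h1, h0, det_one, map_one, map_zero] at this
    exact absurd this (by simp)
  have hu : IsUnit (M f).det := isUnit_iff_ne_zero.2 hdet
  -- coordinates
  have hcoord : ∀ (g : G) (i k : Fin n), ((M f)⁻¹ *ᵥ (fun a => ρ g a i)) k ∈ V := by
    intro g i k
    have e : ((M f)⁻¹ *ᵥ (fun a => ρ g a i)) k =
        ((M f).det)⁻¹ * (M (Function.update f k (g, i))).det := by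
      have e1 : (M f)⁻¹ = ((M f).det)⁻¹ • (M f).adjugate := by
        rw [Matrix.inv_def, Ring.inverse_eq_inv']
      rw [e1, Matrix.smul_mulVec, Pi.smul_apply, smul_eq_mul, ← Matrix.cramer_eq_adjugate_mulVec,
        Matrix.cramer_apply]
      congr 2
      ext a b
      by_cases hb : b = k
      · subst hb
        simp [M]
      · simp [M, hb, Matrix.updateCol_ne]
    rw [e, ← V.valuation_le_one_iff, map_mul, map_inv₀]
    have hle := hf (Function.update f k (g, i))
    have hv : V.valuation (M f).det ≠ 0 := by simpa using hdet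
    calc (V.valuation (M f).det)⁻¹ * V.valuation (M (Function.update f k (g, i))).det
        ≤ (V.valuation (M f).det)⁻¹ * V.valuation (M f).det := by gcongr
      _ = 1 := inv_mul_cancel₀ hv
  refine ⟨M f, (M f)⁻¹, Matrix.nonsing_inv_mul _ hu, Matrix.mul_nonsing_inv _ hu, ?_⟩
  intro g i j
  have e : ((M f)⁻¹ * ρ g * M f) i j =
      ((M f)⁻¹ *ᵥ (fun a => ρ (g * (f j).1) a (f j).2)) i := by
    rw [Matrix.mul_assoc]
    simp only [Matrix.mul_apply, Matrix.mulVec, dotProduct, map_mul]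
    rfl
  rw [e]
  exact hcoord _ _ _

theorem reduce {G : Type*} [Group G] [Finite G] (p : ℕ) [hp : Fact p.Prime] {n : ℕ}
    (ρ : G →* Matrix (Fin n) (Fin n) ℂ) :
    ∃ (F : Type) (_ : Field F) (_ : Finite F) (_ : CharP F p)
      (ρ' : G →* Matrix (Fin n) (Fin n) F),
      ∀ g, ρ' g = 1 → ∀ r, ¬ p ∣ r → g ^ r = 1 → ρ g = 1 := by
  classical
  -- the valuation ring
  obtain ⟨V, hV1, hV2⟩ := Ideal.image_subset_nonunits_valuationSubring (K := ℂ)
    (A := (⊥ : Subring ℂ)) (Ideal.span {(p : (⊥ : Subring ℂ))}) (by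
      rw [Ne, Ideal.span_singleton_eq_top]
      intro h
      obtain ⟨u, hu⟩ := isUnit_iff_exists_inv.1 h
      obtain ⟨z, hz⟩ := Subring.mem_bot.1 u.2
      have h1 : (p : ℂ) * (u : ℂ) = 1 := by
        have := congrArg (Subtype.val) hu
        simpa using this
      rw [← hz] at h1
      have h2 : (p : ℤ) * z = 1 := by exact_mod_cast h1
      have h3 : (p : ℤ) ∣ 1 := ⟨z, h2.symm⟩
      have h4 : p ∣ 1 := by exact_mod_cast h3
      exact hp.out.one_lt.ne' (Nat.dvd_one.1 h4))
  have hpV : (p : ℂ) ∈ V.nonunits := by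
    apply hV2
    exact ⟨(p : (⊥ : Subring ℂ)), Ideal.mem_span_singleton_self _, by simp⟩
  obtain ⟨T, T', hT1, hT2, hint⟩ := exists_int ρ V
  let ent : Finset ℂ := (Set.toFinite
    (Set.range (fun t : G × Fin n × Fin n => (T' * ρ t.1 * T) t.2.1 t.2.2))).toFinset
  let R0 : Subalgebra ℤ ℂ := Algebra.adjoin ℤ (ent : Set ℂ)
  have hent : ∀ g i j, (T' * ρ g * T) i j ∈ R0 := fun g i j =>
    Algebra.subset_adjoin (by
      simp only [ent, Set.Finite.coe_toFinset]
      exact ⟨(g, i, j), rfl⟩)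
  have hR0V : ∀ z ∈ R0, z ∈ V := by
    intro z hz
    induction hz using Algebra.adjoin_induction with
    | mem x hx =>
      simp only [ent, Set.Finite.coe_toFinset, Set.mem_range, Prod.exists] at hx
      obtain ⟨g, i, j, rfl⟩ := hx
      exact hint g i j
    | algebraMap r => simpa using intCast_mem V r
    | add x y _ _ hx hy => exact V.add_mem _ _ hx hy
    | mul x y _ _ hx hy => exact V.mul_mem _ _ hx hy
  have hfg : Algebra.FiniteType ℤ R0 := by
    rw [← Subalgebra.fg_iff_finiteType]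
    exact Subalgebra.fg_adjoin_finset ent
  have hpn : Ideal.span {(p : R0)} ≠ ⊤ := by
    rw [Ne, Ideal.span_singleton_eq_top]
    intro h
    obtain ⟨u, hu⟩ := isUnit_iff_exists_inv.1 h
    have h1 : (p : ℂ) * (u : ℂ) = 1 := by
      have := congrArg (Subtype.val) hu
      simpa using this
    have h2 : (u : ℂ) ∈ V := hR0V _ u.2
    have h3 : V.valuation (p : ℂ) < 1 := V.mem_nonunits_iff.1 hpV
    have h4 : V.valuation (u : ℂ) ≤ 1 := (V.valuation_le_one_iff _).2 h2
    have h5 : V.valuation (p : ℂ) * V.valuation (u : ℂ) = 1 := by rw [← map_mul, h1, map_one]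
    have h6 : V.valuation (p : ℂ) * V.valuation (u : ℂ) < 1 := mul_lt_one_of_lt_of_le h3 h4
    rw [h5] at h6
    exact lt_irrefl _ h6
  obtain ⟨𝔫, hmax, hle⟩ := Ideal.exists_le_maximal _ hpn
  have hp𝔫 : (p : R0) ∈ 𝔫 := hle (Ideal.mem_span_singleton_self _)
  letI : Field (R0 ⧸ 𝔫) := Ideal.Quotient.field 𝔫
  have hchar : CharP (R0 ⧸ 𝔫) p := by
    rw [CharP.charP_iff_prime_eq_zero hp.out]
    have := Ideal.Quotient.eq_zero_iff_mem.2 hp𝔫
    simpa using this
  letI : Algebra (ZMod p) (R0 ⧸ 𝔫) := ZMod.algebra _ p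
  have hft : Algebra.FiniteType ℤ (R0 ⧸ 𝔫) :=
    Algebra.FiniteType.of_surjective (Ideal.Quotient.mkₐ ℤ 𝔫) (Ideal.Quotient.mkₐ_surjective ℤ 𝔫)
  haveI : IsScalarTower ℤ (ZMod p) (R0 ⧸ 𝔫) := inferInstance
  have hft2 : Algebra.FiniteType (ZMod p) (R0 ⧸ 𝔫) :=
    Algebra.FiniteType.of_restrictScalars_finiteType ℤ (ZMod p) (R0 ⧸ 𝔫)
  have hmf : Module.Finite (ZMod p) (R0 ⧸ 𝔫) := finite_of_finite_type_of_isJacobsonRing _ _
  have hfin : Finite (R0 ⧸ 𝔫) := Module.finite_of_finite (ZMod p)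
  -- the matrices over R0
  let σ : G →* Matrix (Fin n) (Fin n) R0 :=
    { toFun := fun g => Matrix.of (fun i j => ⟨(T' * ρ g * T) i j, hent g i j⟩)
      map_one' := by
        ext i j
        simp [hT1, Matrix.one_apply]
        split_ifs <;> simp
      map_mul' := by
        intro g h
        ext i j
        have e : T' * ρ (g * h) * T = (T' * ρ g * T) * (T' * ρ h * T) := by
          rw [map_mul]
          calc T' * (ρ g * ρ h) * T = T' * ρ g * 1 * ρ h * T := by
                simp only [Matrix.mul_assoc, Matrix.one_mul]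
            _ = T' * ρ g * (T * T') * ρ h * T := by rw [hT2]
            _ = _ := by simp only [Matrix.mul_assoc]
        simp only [Matrix.of_apply, e, Matrix.mul_apply (M := T' * ρ g * T)]
        rw [Matrix.mul_apply]
        push_cast
        rfl }
  have hσ : ∀ g i j, ((σ g i j : R0) : ℂ) = (T' * ρ g * T) i j := fun g i j => rfl
  let q : R0 →+* (R0 ⧸ 𝔫) := Ideal.Quotient.mk 𝔫
  refine ⟨R0 ⧸ 𝔫, inferInstance, hfin, hchar, 
    ((q.mapMatrix : Matrix (Fin n) (Fin n) R0 →+* Matrix (Fin n) (Fin n) (R0 ⧸ 𝔫)) :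
      Matrix (Fin n) (Fin n) R0 →* Matrix (Fin n) (Fin n) (R0 ⧸ 𝔫)).comp σ, ?_⟩
  intro g hg r hr hgr
  have hg' : q.mapMatrix (σ g) = 1 := hg
  set Y := σ g with hY
  have hYr : Y ^ r = 1 := by rw [hY, ← map_pow, hgr, map_one]
  let S := ∑ i ∈ Finset.range r, Y ^ i
  have hS1 : (Y - 1) * S = 0 := by
    rw [mul_geom_sum, hYr, sub_self]
  have hS2 : q.mapMatrix S = (r : Matrix (Fin n) (Fin n) (R0 ⧸ 𝔫)) := by
    simp only [S, map_sum, map_pow, hg', one_pow]
    simp
  have hS3 : q S.det = (r : R0 ⧸ 𝔫) ^ n := by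
    rw [RingHom.map_det, hS2]
    have : (r : Matrix (Fin n) (Fin n) (R0 ⧸ 𝔫)) = (r : R0 ⧸ 𝔫) • (1 : Matrix _ _ _) := by
      ext i j
      simp [Matrix.smul_apply, Matrix.one_apply, ← Matrix.diagonal_natCast, Matrix.diagonal_apply]
    rw [this, Matrix.det_smul]
    simp
  have hS4 : S.det ≠ 0 := by
    intro h0
    rw [h0, map_zero] at hS3
    have h1 : (r : R0 ⧸ 𝔫) = 0 := by
      by_contra hne
      exact pow_ne_zero n hne hS3.symm
    exact hr ((CharP.cast_eq_zero_iff (R0 ⧸ 𝔫) p r).1 h1)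
  have hY1 : Y - 1 = 0 := by
    have h1 : (Y - 1) * (S * S.adjugate) = 0 := by rw [← Matrix.mul_assoc, hS1, Matrix.zero_mul]
    rw [Matrix.mul_adjugate, Matrix.mul_smul, Matrix.mul_one] at h1
    ext i j
    have h2 := congrFun (congrFun h1 i) j
    simp only [Matrix.smul_apply, smul_eq_mul, Matrix.zero_apply] at h2
    rcases mul_eq_zero.1 h2 with h3 | h3
    · exact absurd h3 hS4
    · simp [h3]
  have hY2 : Y = 1 := sub_eq_zero.1 hY1
  have h5 : T' * ρ g * T = 1 := by
    ext i j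
    rw [← hσ g i j, ← hY, hY2]
    simp only [Matrix.one_apply]
    split_ifs <;> simp
  calc ρ g = (T * T') * ρ g * (T * T') := by rw [hT2, Matrix.one_mul, Matrix.mul_one]
    _ = T * (T' * ρ g * T) * T' := by simp only [Matrix.mul_assoc]
    _ = 1 := by rw [h5, Matrix.mul_one, hT2]

end Cfsg.Agent.Lib.FeitR
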