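import Mathlib
import Cfsg.Agent.Lib.FeitR
import Cfsg.Agent.Lib.FeitG
import Cfsg.Agent.Lib.FeitH

/-!
# Feit's theorem: eigenvalue counting and the group theoretic conclusion (helper78)
-/

set_option autoImplicit false
set_option linter.all false

namespace Cfsg.Agent.Lib.FeitI

open Finset Module

section eig

variable {K V : Type*} [Field K] [AddCommGroup V] [Module K V]

theorem ev_pow {T : Module.End K V} {c : K} {v : V} (h : T v = c • v) (m : ℕ) : (T ^ m) v = c ^ m • v := by
  induction m with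
  | zero => simp
  | succ m ih => rw [pow_succ, Module.End.mul_apply, h, map_smul, ih, smul_smul, pow_succ, mul_comm]

/-- a nontrivial complex operator of order `p` has an eigenvalue which is a nontrivial `p`-th root of unity -/
theorem exists_ev [FiniteDimensional K V] {p : ℕ} (hp : 0 < p) {ζ : K} (hζ : IsPrimitiveRoot ζ p) {T : Module.End K V}
    (hT : T ^ p = 1) (hT1 : T ≠ 1) : ∃ c : K, c ≠ 1 ∧ c ^ p = 1 ∧ ∃ v, v ≠ 0 ∧ T v = c • v := by
  classical
  by_contra hcon
  push Not at hcon
  have h1 : ∀ c : K, c ≠ 1 → c ^ p = 1 → IsUnit (T - algebraMap K _ c) := by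
    intro c hc hcp
    rw [LinearMap.isUnit_iff_ker_eq_bot, LinearMap.ker_eq_bot']
    intro v hv
    by_contra hv0
    apply hcon c hc hcp v hv0
    rw [LinearMap.sub_apply, sub_eq_zero, Module.algebraMap_end_apply] at hv
    exact hv
  have h2 : (Polynomial.X ^ p - 1 : Polynomial K) = ∏ c ∈ Polynomial.nthRootsFinset p (1 : K), (Polynomial.X - Polynomial.C c) :=
    Polynomial.X_pow_sub_one_eq_prod hp hζ
  have hmem : (1 : K) ∈ Polynomial.nthRootsFinset p (1 : K) := by
    rw [Polynomial.mem_nthRootsFinset hp]; exact one_pow p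
  rw [← Finset.mul_prod_erase _ _ hmem] at h2
  have h3 := congrArg (Polynomial.aeval T) h2
  have h4 : IsUnit (Polynomial.aeval T (∏ c ∈ (Polynomial.nthRootsFinset p (1 : K)).erase 1,
      (Polynomial.X - Polynomial.C c : Polynomial K))) := by
    refine Finset.prod_induction _ (fun P : Polynomial K => IsUnit (Polynomial.aeval T P)) ?_ ?_ ?_
    · intro a b ha hb
      rw [map_mul]
      exact ha.mul hb
    · rw [map_one]; exact isUnit_one
    · intro c hc
      rw [Finset.mem_erase, Polynomial.mem_nthRootsFinset hp] at hc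
      rw [map_sub, Polynomial.aeval_X, Polynomial.aeval_C]
      exact h1 c hc.1 hc.2
  rw [map_mul, map_sub, map_sub, map_pow, map_one, Polynomial.aeval_X, Polynomial.aeval_C, hT, sub_self, map_one] at h3
  have h5 := (h4.mul_left_eq_zero).1 h3.symm
  exact hT1 (sub_eq_zero.1 h5)

/-- linear independence of eigenvectors, counting form -/
theorem card_le [FiniteDimensional K V] {T : Module.End K V} {ι : Type*} [Fintype ι] {μ : ι → K} (hμ : Function.Injective μ)
    {v : ι → V} (hv : ∀ i, v i ≠ 0) (h : ∀ i, T (v i) = μ i • v i) :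
    LinearIndependent K v ∧ Fintype.card ι ≤ finrank K V := by
  have h1 : LinearIndependent K v := by
    apply Module.End.eigenvectors_linearIndependent' T μ hμ v
    intro i
    exact ⟨Module.End.mem_eigenspace_iff.2 (h i), hv i⟩
  exact ⟨h1, h1.fintype_card_le_finrank⟩

/-- operators commuting with one having `dim V` distinct eigenvalues commute -/
theorem commute_of_ev [FiniteDimensional K V] {T : Module.End K V} {ι : Type*} [Fintype ι] {μ : ι → K}
    (hμ : Function.Injective μ) {v : ι → V} (hv : ∀ i, v i ≠ 0) (h : ∀ i, T (v i) = μ i • v i)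
    (hcard : finrank K V ≤ Fintype.card ι) {A B : Module.End K V} (hA : Commute A T) (hB : Commute B T) : Commute A B := by
  classical
  obtain ⟨hli, hle⟩ := card_le hμ hv h
  have hcard' : Fintype.card ι = finrank K V := le_antisymm hle hcard
  rcases isEmpty_or_nonempty ι with hι | hι
  · have h0 : finrank K V = 0 := by rw [← hcard']; exact Fintype.card_eq_zero
    haveI : Subsingleton V := Module.finrank_zero_iff.1 h0
    apply LinearMap.ext
    intro w
    exact Subsingleton.elim _ _
  let b := basisOfLinearIndependentOfCardEqFinrank hli hcard'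
  have hb : ∀ i, b i = v i := fun i => by simp [b]
  have key : ∀ (C : Module.End K V), Commute C T → ∀ i, ∃ a : K, C (v i) = a • v i := by
    intro C hC i
    refine ⟨b.repr (C (v i)) i, ?_⟩
    have h1 : T (C (v i)) = μ i • C (v i) := by
      have : (C * T) (v i) = (T * C) (v i) := by rw [hC.eq]
      rw [Module.End.mul_apply, Module.End.mul_apply, h i, map_smul] at this
      exact this.symm
    apply b.ext_elem
    intro k
    by_cases hk : k = i
    · subst hk
      rw [map_smul, Finsupp.smul_apply, ← hb k, b.repr_self, Finsupp.single_eq_same, smul_eq_mul, mul_one]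
    · rw [map_smul, Finsupp.smul_apply, ← hb i, b.repr_self, Finsupp.single_eq_of_ne hk, smul_zero, hb i]
      have h2 : ∀ w : V, b.repr (T w) k = μ k * b.repr w k := by
        intro w
        have h3 : (Finsupp.lapply k).comp (b.repr.toLinearMap.comp T) = μ k • ((Finsupp.lapply k).comp b.repr.toLinearMap) := by
          apply b.ext
          intro j
          simp only [LinearMap.comp_apply, LinearMap.smul_apply, LinearEquiv.coe_coe, Finsupp.lapply_apply, hb j, h j, map_smul,
            Finsupp.smul_apply, smul_eq_mul]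
          rw [← hb j, b.repr_self]
          by_cases hj : k = j
          · subst hj; rfl
          · rw [Finsupp.single_eq_of_ne hj, mul_zero, mul_zero]
        exact congrArg (fun f => f w) h3
      have h4 := h2 (C (v i))
      rw [h1, map_smul, Finsupp.smul_apply, smul_eq_mul] at h4
      have h5 : (μ i - μ k) * b.repr (C (v i)) k = 0 := by rw [sub_mul, h4, sub_self]
      rcases mul_eq_zero.1 h5 with h6 | h6
      · exact absurd (hμ (sub_eq_zero.1 h6)).symm hk
      · exact h6
  apply b.ext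
  intro i
  obtain ⟨a, ha⟩ := key A hA i
  obtain ⟨c, hc⟩ := key B hB i
  rw [hb i, Module.End.mul_apply, Module.End.mul_apply, ha, hc, map_smul, map_smul, ha, hc, smul_smul, smul_smul, mul_comm]

end eig

section grp

variable {p : ℕ} [hp : Fact p.Prime] {G : Type*} [Group G] [Finite G] {x : G} {K V : Type*} [Field K] [AddCommGroup V]
  [Module K V] [FiniteDimensional K V]

theorem eigens {ζ : K} (hζ : IsPrimitiveRoot ζ p) (ρ : Representation K G V) (hf : ∀ g, ρ g = 1 → g = 1)
    (hx : orderOf x = p) (S : Finset (ZMod p)) (hS : ∀ m ∈ S, ∃ g : G, g * x * g⁻¹ = x ^ m.val) :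
    ∃ (μ : S → K) (v : S → V), Function.Injective μ ∧ (∀ i, v i ≠ 0) ∧ ∀ i, ρ x (v i) = μ i • v i := by
  have hxp : x ^ p = 1 := by rw [← hx, pow_orderOf_eq_one]
  have hx1 : x ≠ 1 := by rintro rfl; rw [orderOf_one] at hx; exact hp.1.one_lt.ne hx
  have h1 : ρ x ^ p = 1 := by rw [← map_pow, hxp, map_one]
  have h2 : ρ x ≠ 1 := fun h => hx1 (hf x h)
  obtain ⟨c, hc1, hcp, w, hw0, hw⟩ := exists_ev hp.1.pos hζ h1 h2
  have hord : orderOf c = p := orderOf_eq_prime hcp hc1
  choose g hg using hS
  refine ⟨fun m => c ^ (m : ZMod p).val, fun m => ρ (g m m.2)⁻¹ w, ?_, ?_, ?_⟩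
  · intro a b hab
    simp only at hab
    have h3 := pow_injOn_Iio_orderOf (x := c) (by rw [Set.mem_Iio, hord]; exact ZMod.val_lt (a : ZMod p))
      (by rw [Set.mem_Iio, hord]; exact ZMod.val_lt (b : ZMod p)) hab
    exact Subtype.ext (ZMod.val_injective p h3)
  · intro m h0
    apply hw0
    have : ρ (g m m.2) (ρ (g m m.2)⁻¹ w) = w := by
      rw [← Module.End.mul_apply, ← map_mul, mul_inv_cancel, map_one, Module.End.one_apply]
    have h0' : ρ (g m m.2)⁻¹ w = 0 := h0
    rw [← this, h0', map_zero]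
  · intro m
    have e : x * (g m m.2)⁻¹ = (g m m.2)⁻¹ * x ^ (m : ZMod p).val := by
      rw [← hg m m.2]; group
    rw [← Module.End.mul_apply, ← map_mul, e, map_mul, Module.End.mul_apply, map_pow, ev_pow hw, map_smul]

theorem card_sq : p ≤ 2 * ((univ.filter fun t : ZMod p => t ≠ 0).image fun t => t * t).card + 1 := by
  classical
  have h1 : (univ.filter fun t : ZMod p => t ≠ 0).card = p - 1 := by
    rw [Finset.filter_ne', Finset.card_erase_of_mem (Finset.mem_univ _), Finset.card_univ, ZMod.card]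
  have h2 := Finset.card_le_mul_card_image (f := fun t : ZMod p => t * t) (univ.filter fun t : ZMod p => t ≠ 0) 2 (by
    intro b hb
    obtain ⟨a, ha, rfl⟩ := Finset.mem_image.1 hb
    refine (Finset.card_le_card (t := {a, -a}) ?_).trans Finset.card_le_two
    intro c hc
    rw [Finset.mem_filter] at hc
    rw [Finset.mem_insert, Finset.mem_singleton]
    exact mul_self_eq_mul_self_iff.1 hc.2)
  rw [h1] at h2
  omega

theorem faithful_core {n : ℕ} (h5 : 5 ≤ p) (hsyl : ¬ p ^ 2 ∣ Nat.card G) (hnn : ∀ H : Subgroup G, H.Normal → Nat.card H ≠ p)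
    (ρ : Representation ℂ G (Fin n → ℂ)) (hf : ∀ g, ρ g = 1 → g = 1) (hx : orderOf x = p) (hd : 2 * n + 1 ≤ p) :
    ∃ (F : Type) (_ : Field F) (_ : Finite F) (θ : G →* Matrix.ProjGenLinGroup (Fin 2) F),
      (∀ g, θ g = 1 → Commute g x) ∧ (∀ g, θ g = 1 → g ^ p = 1 → g = 1) ∧
      (((∀ t : ZMod p, t ≠ 0 → ∃ g : G, g * x * g⁻¹ = x ^ (t * t).val) ∧
        Nonempty (θ.range ≃* Matrix.ProjectiveSpecialLinearGroup (Fin 2) (ZMod p))) ∨
      (∀ t : ZMod p, t ≠ 0 → ∃ g : G, g * x * g⁻¹ = x ^ t.val)) := by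
  classical
  let e : Module.End ℂ (Fin n → ℂ) ≃ₐ[ℂ] Matrix (Fin n) (Fin n) ℂ := LinearMap.toMatrixAlgEquiv'
  obtain ⟨F, hF, hfin, hchar, ρ', hρ'⟩ := FeitR.reduce p ((e : Module.End ℂ (Fin n → ℂ) →* Matrix (Fin n) (Fin n) ℂ).comp ρ)
  have hker : ∀ g, ρ' g = 1 → ∀ r, ¬ p ∣ r → g ^ r = 1 → g = 1 := by
    intro g hg r hr hgr
    have h1 := hρ' g hg r hr hgr
    apply hf
    have h2 : e (ρ g) = e 1 := by rw [map_one]; exact h1
    exact e.injective h2
  -- the kernel is trivial
  have hkp : ∀ g, ρ' g = 1 → g ^ p = 1 := by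
    intro g hg
    by_contra hne
    have h0 : orderOf g ≠ 0 := (orderOf_pos g).ne'
    obtain ⟨k, m, hm, hk⟩ := Nat.exists_eq_pow_mul_and_not_dvd h0 p hp.1.one_lt.ne'
    have hk2 : k ≤ 1 := by
      by_contra hlt
      apply hsyl
      refine ((pow_dvd_pow p (by omega : 2 ≤ k)).trans ?_).trans (orderOf_dvd_natCard g)
      rw [hk]; exact Dvd.intro _ rfl
    apply hne
    apply hker (g ^ p) (by rw [map_pow, hg, one_pow]) m hm
    rw [← pow_mul, ← orderOf_dvd_iff_pow_eq_one, hk]
    exact Nat.mul_dvd_mul ((pow_dvd_pow p hk2).trans (by rw [pow_one])) dvd_rfl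
  have hfaith : ∀ g, ρ' g = 1 → g = 1 := by
    have hpg : IsPGroup p ρ'.ker := by
      rintro ⟨g, hg⟩
      exact ⟨1, Subtype.ext (by rw [pow_one]; exact hkp g hg)⟩
    obtain ⟨k, hk⟩ := IsPGroup.iff_card.1 hpg
    have hk0 : k = 0 := by
      by_contra hk0
      rcases Nat.lt_or_ge k 2 with h2 | h2
      · have : k = 1 := by omega
        subst this
        exact hnn ρ'.ker inferInstance (by rw [hk, pow_one])
      · exact hsyl ((pow_dvd_pow p h2).trans (by rw [← hk]; exact Subgroup.card_subgroup_dvd_card _))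
    rw [hk0, pow_zero, Subgroup.card_eq_one] at hk
    intro g hg
    have : g ∈ ρ'.ker := hg
    rw [hk] at this
    exact Subgroup.mem_bot.1 this
  let e' : Matrix (Fin n) (Fin n) F ≃ₐ[F] Module.End F (Fin n → F) := LinearMap.toMatrixAlgEquiv'.symm
  let σ : Representation F G (Fin n → F) := (e' : Matrix (Fin n) (Fin n) F →* Module.End F (Fin n → F)).comp ρ'
  have hσ : ∀ g, σ g = 1 → g = 1 := by
    intro g hg
    apply hfaith
    have h2 : e' (ρ' g) = e' 1 := by rw [map_one]; exact hg
    exact e'.injective h2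
  have hnn' : ∃ g, g * x * g⁻¹ ∉ Subgroup.zpowers x := by
    by_contra hcon
    push Not at hcon
    refine hnn (Subgroup.zpowers x) ⟨?_⟩ (by rw [Nat.card_zpowers, hx])
    rintro y ⟨k, rfl⟩ g
    have : g * x ^ k * g⁻¹ = (g * x * g⁻¹) ^ k := by rw [conj_zpow]
    change g * x ^ k * g⁻¹ ∈ _
    rw [this]
    exact Subgroup.zpow_mem _ (hcon g) k
  have hd' : 2 * finrank F (Fin n → F) + 1 ≤ p := by rw [Module.finrank_fin_fun]; exact hd
  obtain ⟨θ, h1, h2, h3⟩ := FeitG.core h5 σ hσ hx hsyl hd' hnn'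
  letI := Fintype.ofFinite F
  exact ⟨F, hF, hfin, θ, h1, h2, FeitH.struct h5 θ h1 h2 h3 hx hsyl⟩

end grp

end Cfsg.Agent.Lib.FeitI
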