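import Mathlib
import Cfsg.Prelude.Def_Blocks
import Cfsg.Agent.Lib.FeitI

/-!
# Feit's theorem: groups with a faithful complex representation of degree `≤ (p-1)/2` (helper78)
-/

set_option autoImplicit false
set_option linter.all false

namespace Cfsg.Agent.Lib.FeitJ

open Finset Module

section grp

variable {p : ℕ} [hp : Fact p.Prime] {G : Type*} [Group G] [Finite G]

/-- a homomorphism with simple image, kernel centralizing `x`, and `C_G(x)` abelian -/
theorem quot_center {H : Type*} [Group H] (h5 : 5 ≤ p) {x : G} (hxp : x ^ p = 1) (hx1 : x ≠ 1) (θ : G →* H)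
    (h1 : ∀ g, θ g = 1 → Commute g x) (h2 : ∀ g, θ g = 1 → g ^ p = 1 → g = 1) (hs : IsSimpleGroup θ.range)
    (hab : ∀ g h : G, Commute g x → Commute h x → Commute g h) {g4 : G} (hg4 : g4 * x * g4⁻¹ = x ^ 4) :
    θ.ker = Subgroup.center G := by
  have hθx : θ x ≠ 1 := fun h => hx1 (h2 x h hxp)
  apply le_antisymm
  · intro r hr
    have hr1 : θ r = 1 := hr
    let N := Subgroup.normalClosure {x}
    have hN : N ≤ Subgroup.centralizer (θ.ker : Set G) := by
      haveI : (Subgroup.centralizer (θ.ker : Set G)).Normal := inferInstance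
      apply Subgroup.normalClosure_le_normal
      rw [Set.singleton_subset_iff, SetLike.mem_coe, Subgroup.mem_centralizer_iff]
      intro h hh
      exact (h1 h hh).eq
    haveI hmn : (N.map θ.rangeRestrict).Normal := Subgroup.Normal.map inferInstance _ θ.rangeRestrict_surjective
    have hx : x ∈ N := Subgroup.subset_normalClosure (Set.mem_singleton x)
    have htop : N.map θ.rangeRestrict = ⊤ := by
      rcases hmn.eq_bot_or_eq_top with h | h
      · exfalso
        apply hθx
        have h3 : θ.rangeRestrict x ∈ N.map θ.rangeRestrict := Subgroup.mem_map_of_mem _ hx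
        rw [h, Subgroup.mem_bot] at h3
        exact congrArg Subtype.val h3
      · exact h
    rw [Subgroup.mem_center_iff]
    intro g
    have h3 : θ.rangeRestrict g ∈ N.map θ.rangeRestrict := by rw [htop]; trivial
    obtain ⟨y, hy, hyg⟩ := h3
    have h4 : θ (y⁻¹ * g) = 1 := by
      have : θ y = θ g := congrArg Subtype.val hyg
      rw [map_mul, map_inv, this, inv_mul_cancel]
    have h5' : Commute r y := by
      have := hN hy
      rw [Subgroup.mem_centralizer_iff] at this
      exact this r hr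
    have h6 : Commute r (y⁻¹ * g) := hab _ _ (h1 r hr1) (h1 _ h4)
    have h7 : Commute r (y * (y⁻¹ * g)) := h5'.mul_right h6
    rw [mul_inv_cancel_left] at h7
    exact h7.eq.symm
  · intro z hz
    have hc : θ.rangeRestrict z ∈ Subgroup.center θ.range := by
      rw [Subgroup.mem_center_iff]
      rintro ⟨_, g, rfl⟩
      apply Subtype.ext
      change θ g * θ z = θ z * θ g
      rw [← map_mul, ← map_mul, Subgroup.mem_center_iff.1 hz g]
    have hcn : (Subgroup.center θ.range).Normal := inferInstance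
    rcases hcn.eq_bot_or_eq_top with h | h
    · rw [h, Subgroup.mem_bot] at hc
      exact congrArg Subtype.val hc
    · exfalso
      have h3 : θ.rangeRestrict x ∈ Subgroup.center θ.range := by rw [h]; trivial
      have h4 := Subgroup.mem_center_iff.1 h3 (θ.rangeRestrict g4)
      have h6 : θ g4 * θ x = θ x * θ g4 := congrArg Subtype.val h4
      have h7 : θ x = θ x ^ 4 := by
        rw [← map_pow, ← hg4, map_mul, map_mul, h6, map_inv, mul_inv_cancel_right]
      have h8 : θ x ^ 3 = 1 := by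
        have : θ x * θ x ^ 3 = θ x * 1 := by rw [← pow_succ', mul_one]; exact h7.symm
        exact mul_left_cancel this
      have h9 : θ x ^ p = 1 := by rw [← map_pow, hxp, map_one]
      apply hθx
      rw [← orderOf_eq_one_iff, ← Nat.dvd_one]
      have h10 : Nat.gcd 3 p = 1 := by
        rw [← Nat.coprime_iff_gcd_eq_one]
        exact (Nat.coprime_primes Nat.prime_three hp.1).2 (by omega)
      rw [← h10]
      exact Nat.dvd_gcd (orderOf_dvd_of_pow_eq_one h8) (orderOf_dvd_of_pow_eq_one h9)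

theorem main {n : ℕ} (h5 : 5 ≤ p) (hdvd : p ∣ Nat.card G) (hsyl : ¬ p ^ 2 ∣ Nat.card G)
    (hnn : ∀ H : Subgroup G, H.Normal → Nat.card H ≠ p)
    (ρ : Representation ℂ G (Fin n → ℂ)) (hf : ∀ g, ρ g = 1 → g = 1) (hd : 2 * n + 1 ≤ p) :
    2 * n + 1 = p ∧
      Nonempty ((G ⧸ Subgroup.center G) ≃* Matrix.ProjectiveSpecialLinearGroup (Fin 2) (ZMod p)) := by
  classical
  obtain ⟨x, hx⟩ := exists_prime_orderOf_dvd_card' p hdvd
  have hxp : x ^ p = 1 := by rw [← hx, pow_orderOf_eq_one]
  have hx1 : x ≠ 1 := by rintro rfl; rw [orderOf_one] at hx; omega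
  have hζ := Complex.isPrimitiveRoot_exp p hp.1.ne_zero
  obtain ⟨F, hF, hfin, θ, h1, h2, hc⟩ := FeitI.faithful_core h5 hsyl hnn ρ hf hx hd
  rcases hc with ⟨hc1, ⟨e⟩⟩ | hc
  · obtain ⟨μ, v, hμ, hv, hρ⟩ := FeitI.eigens hζ ρ hf hx ((univ.filter fun t : ZMod p => t ≠ 0).image fun t => t * t) (by
      intro m hm
      obtain ⟨t, ht, rfl⟩ := Finset.mem_image.1 hm
      exact hc1 t (Finset.mem_filter.1 ht).2)
    have hle := (FeitI.card_le hμ hv hρ).2
    rw [Fintype.card_coe, Module.finrank_fin_fun] at hle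
    have hsq := FeitI.card_sq (p := p)
    have heq : 2 * n + 1 = p := by omega
    refine ⟨heq, ?_⟩
    have hab : ∀ g h : G, Commute g x → Commute h x → Commute g h := by
      intro g h hg hh
      have h3 : Commute (ρ g) (ρ h) := by
        apply FeitI.commute_of_ev hμ hv hρ
        · rw [Fintype.card_coe, Module.finrank_fin_fun]; omega
        · exact hg.map ρ
        · exact hh.map ρ
      have h4 : ρ (g * h * (h * g)⁻¹) = 1 := by
        rw [map_mul, map_mul, h3.eq, ← map_mul, ← map_mul, mul_inv_cancel, map_one]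
      exact mul_inv_eq_one.1 (hf _ h4)
    haveI hs0 : IsSimpleGroup (Matrix.ProjectiveSpecialLinearGroup (Fin 2) (ZMod p)) :=
      Matrix.ProjectiveSpecialLinearGroup.rank_two_simple (by rw [Nat.card_zmod]; omega)
    have hs : IsSimpleGroup θ.range := e.isSimpleGroup
    obtain ⟨g4, hg4⟩ := hc1 2 (by
      intro h
      have : ((2 : ℕ) : ZMod p) = 0 := by exact_mod_cast h
      rw [ZMod.natCast_eq_zero_iff] at this
      have := Nat.le_of_dvd (by norm_num) this
      omega)
    have h4v : ((2 * 2 : ZMod p)).val = 4 := by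
      have : (2 * 2 : ZMod p) = ((4 : ℕ) : ZMod p) := by norm_num
      rw [this, ZMod.val_natCast, Nat.mod_eq_of_lt (by omega)]
    rw [h4v] at hg4
    have hker := quot_center h5 hxp hx1 θ h1 h2 hs hab hg4
    exact ⟨(QuotientGroup.quotientMulEquivOfEq hker.symm).trans ((QuotientGroup.quotientKerEquivRange θ).trans e)⟩
  · exfalso
    obtain ⟨μ, v, hμ, hv, hρ⟩ := FeitI.eigens hζ ρ hf hx (univ.filter fun t : ZMod p => t ≠ 0) (by
      intro m hm
      exact hc m (Finset.mem_filter.1 hm).2)
    have hle := (FeitI.card_le hμ hv hρ).2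
    rw [Fintype.card_coe, Module.finrank_fin_fun, Finset.filter_ne', Finset.card_erase_of_mem (Finset.mem_univ _),
      Finset.card_univ, ZMod.card] at hle
    omega

/-- the same for characters -/
theorem of_char {χ : G → ℂ} (hχ : Cfsg.IsCharacter G χ) (hfaith : ∀ g : G, χ g = χ 1 → g = 1) :
    ∃ (n : ℕ) (ρ : Representation ℂ G (Fin n → ℂ)), Cfsg.charDegree χ = n ∧ ∀ g, ρ g = 1 → g = 1 := by
  obtain ⟨n, ρ, rfl⟩ := hχ
  refine ⟨n, ρ, ?_, ?_⟩
  · have h1 : ρ.character 1 = n := by
      rw [Representation.char_one, Module.finrank_fin_fun]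
    rw [Cfsg.charDegree, h1]
    simp
  · intro g hg
    apply hfaith
    change LinearMap.trace ℂ _ (ρ g) = LinearMap.trace ℂ _ (ρ 1)
    rw [hg, ρ.map_one]

theorem le_deg (hp' : p.Prime) (hdvd : p ∣ Nat.card G) (hsyl : ¬ p ^ 2 ∣ Nat.card G)
    (hnn : ∀ H : Subgroup G, H.Normal → Nat.card H ≠ p) {χ : G → ℂ} (hχ : Cfsg.IsCharacter G χ)
    (hfaith : ∀ g : G, χ g = χ 1 → g = 1) : p ≤ 2 * Cfsg.charDegree χ + 1 := by
  obtain ⟨n, ρ, hn, hf⟩ := of_char hχ hfaith
  rw [hn]
  by_contra hcon
  have hn0 : n ≠ 0 := by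
    rintro rfl
    have h1 : ∀ g : G, g = 1 := by
      intro g
      apply hf
      apply LinearMap.ext
      intro w
      exact Subsingleton.elim _ _
    have h2 : Nat.card G = 1 := by
      haveI : Subsingleton G := ⟨fun a b => by rw [h1 a, h1 b]⟩
      exact Nat.card_of_subsingleton 1
    rw [h2] at hdvd
    exact hp'.one_lt.ne' (Nat.dvd_one.1 hdvd)
  have h5 : 5 ≤ p := by
    have h4 : p ≠ 4 := by rintro rfl; exact absurd hp' (by norm_num)
    omega
  have := (main h5 hdvd hsyl hnn ρ hf (by omega)).1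
  omega

theorem eq_deg (hp' : p.Prime) (hdvd : p ∣ Nat.card G) (hsyl : ¬ p ^ 2 ∣ Nat.card G)
    (hnn : ∀ H : Subgroup G, H.Normal → Nat.card H ≠ p) {χ : G → ℂ} (hχ : Cfsg.IsCharacter G χ)
    (hfaith : ∀ g : G, χ g = χ 1 → g = 1) (hdeg : 2 * Cfsg.charDegree χ + 1 = p) :
    Nonempty ((G ⧸ Subgroup.center G) ≃* Matrix.ProjectiveSpecialLinearGroup (Fin 2) (ZMod p)) := by
  obtain ⟨n, ρ, hn, hf⟩ := of_char hχ hfaith
  rw [hn] at hdeg
  have h5 : 5 ≤ p := by
    by_contra hlt
    have h2 := hp'.two_le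
    have h3 : n = 1 := by omega
    subst h3
    -- degree one: abelian
    have hab : ∀ a b : G, a * b = b * a := by
      intro a b
      have h4 : ∀ f g : Module.End ℂ (Fin 1 → ℂ), f * g = g * f := by
        intro f g
        apply (LinearMap.toMatrixAlgEquiv' : Module.End ℂ (Fin 1 → ℂ) ≃ₐ[ℂ] _).injective
        rw [map_mul, map_mul]
        ext i j
        rw [Matrix.mul_apply, Matrix.mul_apply]
        fin_cases i; fin_cases j
        simp [mul_comm]
      have h5 : ρ (a * b * (b * a)⁻¹) = 1 := by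
        rw [map_mul, map_mul ρ a b, h4 (ρ a) (ρ b), ← map_mul, ← map_mul, mul_inv_cancel, map_one]
      exact mul_inv_eq_one.1 (hf _ h5)
    obtain ⟨x, hx⟩ := exists_prime_orderOf_dvd_card' p hdvd
    refine hnn (Subgroup.zpowers x) ⟨?_⟩ (by rw [Nat.card_zpowers, hx])
    intro y hy g
    rw [hab g y, mul_inv_cancel_right]
    exact hy
  exact (main h5 hdvd hsyl hnn ρ hf (by omega)).2

end grp

end Cfsg.Agent.Lib.FeitJ
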