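import Cfsg.Agent.Lib.Fi23M3Chk
import Cfsg.Agent.Lib.Fi23Nrm

/-!
# The maximal subgroup `3^{1+8}.2^{1+6}.3^{1+2}.2S_4` of `Fi₂₃`: elements of prime order
-/

set_option autoImplicit false
set_option linter.all false
set_option maxRecDepth 100000
set_option exponentiation.threshold 50000

namespace Cfsg.Agent.Lib.Fi23M3

section perm

variable {G : Type*} [Group G] {φ : G →* Equiv.Perm ℕ}

theorem ex_fix {h : G} {p : ℕ} (hp : p.Prime) (hh : h ^ p = 1) (X : Finset ℕ) (hX : ∀ i ∈ X, φ h i ∈ X)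
    (hc : ¬ p ∣ X.card) : ∃ i ∈ X, φ h i = i := by
  classical
  have himg : X.image (φ h) = X := by
    apply Finset.eq_of_subset_of_card_le
    · intro j hj
      obtain ⟨i, hi, rfl⟩ := Finset.mem_image.mp hj
      exact hX i hi
    · rw [Finset.card_image_of_injective _ (φ h).injective]
  have hb : ∀ i, φ h i ∈ X ↔ i ∈ X := by
    intro i
    refine ⟨fun hi => ?_, hX i⟩
    rw [← himg] at hi
    obtain ⟨j, hj, h2⟩ := Finset.mem_image.mp hi
    rwa [(φ h).injective h2] at hj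
  let σ : Equiv.Perm X := Equiv.Perm.subtypePerm (φ h) hb
  have hσ : σ ^ p ^ 1 = 1 := by
    rw [pow_one]
    ext i
    rw [Equiv.Perm.subtypePerm_pow]
    show (φ h ^ p) i = i
    rw [← map_pow, hh, map_one]; rfl
  have _ : Fact p.Prime := ⟨hp⟩
  obtain ⟨a, ha⟩ := Equiv.Perm.exists_fixed_point_of_prime (p := p) (n := 1) (by rwa [Fintype.card_coe]) hσ
  exact ⟨a.1, a.2, congrArg Subtype.val ha⟩

theorem all_fix {h : G} {p : ℕ} (hp : p.Prime) (hh : h ^ p = 1) : ∀ (m : ℕ) (X : Finset ℕ), X.card = m → m < p →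
    (∀ i ∈ X, φ h i ∈ X) → ∀ i ∈ X, φ h i = i := by
  intro m
  induction m with
  | zero =>
    intro X hX _ _ i hi
    rw [Finset.card_eq_zero] at hX
    rw [hX] at hi
    exact absurd hi (by simp)
  | succ m ih =>
    intro X hX hm hinv i hi
    obtain ⟨y, hy, hyy⟩ := ex_fix hp hh X hinv (by
      rw [hX]
      intro hd
      have := Nat.le_of_dvd (by omega) hd
      omega)
    by_cases h1 : i = y
    · rw [h1]; exact hyy
    refine ih (X.erase y) (by rw [Finset.card_erase_of_mem hy, hX]; rfl) (by omega) ?_ i (Finset.mem_erase.mpr ⟨h1, hi⟩)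
    intro j hj
    rw [Finset.mem_erase] at hj ⊢
    exact ⟨fun h2 => hj.1 ((φ h).injective (h2.trans hyy.symm)), hinv j hj.2⟩

theorem pair_fix {h g : G} {p : ℕ} (hp : p.Prime) (h5 : 5 ≤ p) (hh : h ^ p = 1) (hg : h * g = g * h) (hg2 : g * g = 1) :
    ∀ (m : ℕ) (X : Finset ℕ), X.card = 2 * m → m ≤ 4 → (∀ i ∈ X, φ h i ∈ X) → (∀ i ∈ X, φ g i ∈ X ∧ φ g i ≠ i) →
    ∀ i ∈ X, φ h i = i := by
  have hgg : ∀ i, φ g (φ g i) = i := by
    intro i
    rw [← Equiv.Perm.mul_apply, ← map_mul, hg2, map_one]; rfl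
  intro m
  induction m with
  | zero =>
    intro X hX _ _ _ i hi
    rw [mul_zero, Finset.card_eq_zero] at hX
    rw [hX] at hi
    exact absurd hi (by simp)
  | succ m ih =>
    intro X hX hm hinv hfree i hi
    obtain ⟨y, hy, hyy⟩ := ex_fix hp hh X hinv (by
      rw [hX]
      intro hd
      rcases (Nat.Prime.dvd_mul hp).mp hd with hd | hd
      · have := Nat.le_of_dvd (by omega) hd
        omega
      · have := Nat.le_of_dvd (by omega) hd
        omega)
    have hy' : φ h (φ g y) = φ g y := by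
      rw [← Equiv.Perm.mul_apply, ← map_mul, hg, map_mul, Equiv.Perm.mul_apply, hyy]
    obtain ⟨hgy, hgy'⟩ := hfree y hy
    by_cases h1 : i = y
    · rw [h1]; exact hyy
    by_cases h2 : i = φ g y
    · rw [h2]; exact hy'
    have hmem : φ g y ∈ X.erase y := Finset.mem_erase.mpr ⟨hgy', hgy⟩
    refine ih ((X.erase y).erase (φ g y)) ?_ (by omega) ?_ ?_ i
      (Finset.mem_erase.mpr ⟨h2, Finset.mem_erase.mpr ⟨h1, hi⟩⟩)
    · rw [Finset.card_erase_of_mem hmem, Finset.card_erase_of_mem hy, hX]; omega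
    · intro j hj
      rw [Finset.mem_erase, Finset.mem_erase] at hj ⊢
      exact ⟨fun h3 => hj.1 ((φ h).injective (h3.trans hy'.symm)),
        fun h3 => hj.2.1 ((φ h).injective (h3.trans hyy.symm)), hinv j hj.2.2⟩
    · intro j hj
      rw [Finset.mem_erase, Finset.mem_erase] at hj ⊢
      obtain ⟨h3, h4⟩ := hfree j hj.2.2
      refine ⟨⟨fun h5 => hj.2.1 ((φ g).injective h5), fun h5 => hj.1 ?_, h3⟩, h4⟩
      rw [← hgg j, h5]

end perm

open Cfsg.Spor Cfsg.Agent.Lib.BenesPerm Cfsg.Agent.Lib.BenesAct Cfsg.Agent.Lib.BenesWord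
open Cfsg.Agent.Lib.LaneTools Cfsg.Agent.Lib.TransLanes Cfsg.Agent.Lib.Fi23Rel Cfsg.Agent.Lib.Fi23NetsA
open Cfsg.Agent.Lib.Fi23Out Cfsg.Agent.Lib.Fi23M3Data Cfsg.Agent.Lib.Fi23M3Chk
open Cfsg.Agent.Lib.CosetMain Cfsg.Agent.Lib.CoxBridge Cfsg.Agent.Lib.CosetGroup
open Cfsg.Agent.Lib.BenesPlane
open Cfsg.Agent.Lib.SliceK4 (allK allK_spec)
open Cfsg.Agent.Lib.PrimLane (stab orb relIndex_stab)
open Cfsg.Agent.Lib.Fi23A (c_nets)

theorem mk_cons (i : ℕ) (l : List ℕ) : mk (i :: l) = 2 ^ i ||| mk l := rfl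

theorem testBit_mk {l : List ℕ} {i : ℕ} : (mk l).testBit i = true ↔ i ∈ l := by
  induction l with
  | nil =>
    show (0 : ℕ).testBit i = true ↔ _
    simp
  | cons a l ih =>
    rw [mk_cons, Nat.testBit_or, Bool.or_eq_true, Nat.testBit_two_pow, decide_eq_true_eq, ih, List.mem_cons]
    exact or_congr_left eq_comm

theorem bit_of_and {a i : ℕ} (h : Nat.land (Nat.shiftRight a i) 1 = 1) : a.testBit i = true := by
  have h1 : (a >>> i) &&& 1 = 1 := h
  rw [Nat.testBit_eq_decide_div_mod_eq, decide_eq_true_eq]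
  rwa [Nat.and_one_is_mod, Nat.shiftRight_eq_div_pow] at h1

theorem not_bit_of_and {a i : ℕ} (h : Nat.land (Nat.shiftRight a i) 1 = 0) : ¬ a.testBit i = true := by
  have h1 : (a >>> i) &&& 1 = 0 := h
  rw [Nat.testBit_eq_decide_div_mod_eq, decide_eq_true_eq]
  rw [Nat.and_one_is_mod, Nat.shiftRight_eq_div_pow] at h1
  omega

variable {φ : GF →* Equiv.Perm ℕ}

/-- the stabilizer of the 324 lanes -/
def HH (φ : GF →* Equiv.Perm ℕ) : Subgroup GF where
  carrier := {g | ∀ i, FM.testBit i = true ↔ FM.testBit (φ g i) = true}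
  one_mem' := by intro i; rw [map_one]; rfl
  mul_mem' := by
    intro a b ha hb i
    rw [map_mul, Equiv.Perm.mul_apply, hb i, ha (φ b i)]
  inv_mem' := by
    intro a ha i
    have h := ha (φ a⁻¹ i)
    rw [← Equiv.Perm.mul_apply, ← map_mul, mul_inv_cancel, map_one] at h
    exact h.symm

theorem cross_ne {j l i : ℕ} (hj : j < 4) (hl : l < 4) (hjl : j ≠ l) (hi : i ∈ bl l) : (rc (cj j)).testBit i = true := by
  have h := allK_spec (allK_spec cross j hj) l hl
  rw [List.all_eq_true] at h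
  have h1 := h i hi
  have h2 : Nat.beq j l = false := by
    rw [Bool.eq_false_iff]
    intro h3
    exact hjl (Nat.eq_of_beq_eq_true h3)
  rw [h2] at h1
  exact bit_of_and (Nat.eq_of_beq_eq_true h1)

theorem cross_eq {j i : ℕ} (hj : j < 4) (hi : i ∈ bl j) (h0 : (rc (cj j)).testBit i = true) : i = fj j := by
  have h := allK_spec (allK_spec cross j hj) j hj
  rw [List.all_eq_true] at h
  have h1 := h i hi
  have h2 : Nat.beq j j = true := Nat.beq_refl j
  rw [h2] at h1
  by_contra hne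
  have h3 : Nat.beq i (fj j) = false := by
    rw [Bool.eq_false_iff]
    intro h3
    exact hne (Nat.eq_of_beq_eq_true h3)
  rw [h3] at h1
  exact not_bit_of_and (Nat.eq_of_beq_eq_true h1) h0

theorem bl_lt : ∀ j < 4, ∀ i ∈ bl j, i < 31671 := by decide +kernel
theorem bl_F : ∀ j < 4, ∀ i ∈ bl j, FM.testBit i = true := by decide +kernel
theorem fj_mem : ∀ j < 4, fj j ∈ bl j := by decide +kernel
theorem bl_disj : ∀ j < 4, ∀ l < 4, fj j ∈ bl l → j = l := by decide +kernel
theorem fj_pt : ∀ j < 4, pt (cj j) = fj j ∧ cj j < 10 := by decide +kernel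
theorem tail_iff : ∀ j < 4, ∀ i ∈ bl j, i ∈ (bl j).tail ∨ i = fj j := by decide +kernel
theorem tail_ne : ∀ j < 4, ∀ i ∈ (bl j).tail, i ∈ bl j ∧ i ≠ fj j := by decide +kernel
theorem tail_card : ∀ j < 4, ((bl j).tail.toFinset).card = 8 := by decide +kernel

/-- remaining blocks -/
noncomputable def NR (R : Finset ℕ) : Finset ℕ := R.biUnion (fun j => (bl j).toFinset)

theorem NR_card : ∀ R ∈ ({1, 2, 3} : Finset ℕ).powerset, (NR R).card = 9 * R.card := by decide +kernel

theorem mem_NR {R : Finset ℕ} {i : ℕ} : i ∈ NR R ↔ ∃ j ∈ R, i ∈ bl j := by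
  unfold NR
  rw [Finset.mem_biUnion]
  simp

section ctx

variable (C : Ctx xx φ nets 15 31671 10 pt rc)
include C

theorem lane_of {w : List ℕ} (hw : lt10 w = true) {i j : ℕ} (hi : i < 2 ^ 15) (h : laneT tabs w i j = true) :
    φ (Wx xx w) i = j := by
  rw [C.φ_word]; exact wfn_T (lt10_spec hw) hi h

theorem mem_HH_inv {ws : List (List ℕ)} (h : invK nets ws FM = true) {w : List ℕ} (hw : w ∈ ws) : Wx xx w ∈ HH φ := by
  intro i
  have h1 := invK_spec h w hw
  have h2 := testBit_appW (hok c_nets) w FM i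
  rw [h1] at h2
  rw [C.φ_word, ← h2]

theorem orb1 : {i | FM.testBit i = true} ⊆ orb φ (HH φ) 7999 :=
  Fi23Nrm.mask_sub c_nets C.φ_word (HH φ) 7999 (fun w hw => mem_HH_inv C F_inv hw) r1
theorem orb2 : {i | OM2.testBit i = true} ⊆ orb φ (HH φ) 2 :=
  Fi23Nrm.mask_sub c_nets C.φ_word (HH φ) 2 (fun w hw => mem_HH_inv C F_inv hw) r2
theorem orb3 : {i | OM3.testBit i = true} ⊆ orb φ (HH φ) 11 :=
  Fi23Nrm.mask_sub c_nets C.φ_word (HH φ) 11 (fun w hw => mem_HH_inv C F_inv hw) r3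

theorem F_ltn {i : ℕ} (hi : FM.testBit i = true) : i < 31671 := by
  have h1 : FM &&& (2 ^ 31671 - 1) = FM := F_n
  rw [← h1, Nat.testBit_and, Bool.and_eq_true, Nat.testBit_two_pow_sub_one, decide_eq_true_eq] at hi
  exact hi.2

theorem T_HH {c : ℕ} (hc : FM.testBit c = true) : C.T c ∈ HH φ := by
  obtain ⟨k, hk, h⟩ := orb1 C hc
  have h1 : C.T c = k * C.T 7999 * k⁻¹ := by
    rw [← h, C.T_map (by norm_num)]
  have h2 : C.T 7999 = Wx xx [9] := by
    rw [Wx_cons, Wx_nil, mul_one]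
    exact C.T_pt (c := 9) (by norm_num)
  rw [h1, h2]
  exact (HH φ).mul_mem ((HH φ).mul_mem hk (mem_HH_inv C F_inv (by decide))) ((HH φ).inv_mem hk)

/-- the masks of letters are preserved -/
theorem rc_inv {c : ℕ} (hc : c < 10) {h : GF} (hh : φ h (pt c) = pt c) {i : ℕ} (hi : i < 31671) :
    (rc c).testBit (φ h i) = true ↔ (rc c).testBit i = true := by
  have h1 := (C.fix_iff (C.hpt c hc) h).1 hh
  rw [C.T_pt hc] at h1
  have h2 : ∀ i, φ (xx c) i = wfn nets [c] i := by
    intro i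
    rw [← C.φ_word, Wx_cons, Wx_nil, mul_one]
  rw [C.hrc c hc _ (C.hlt h i hi), C.hrc c hc i hi, ← h2, ← h2, ← Equiv.Perm.mul_apply, ← map_mul, ← h1, map_mul,
    Equiv.Perm.mul_apply]
  exact (φ h).injective.eq_iff

/-- the first neighbours -/
theorem mem_nb1 {i : ℕ} (h1 : FM.testBit i = true) (h2 : (rc 9).testBit i = true) : i = 7999 ∨ ∃ j ∈ ({1, 2, 3} : Finset ℕ), i ∈ bl j := by
  have h3 : (FM &&& rc 9).testBit i = true := by rw [Nat.testBit_and, h1, h2]; rfl
  have h4 : FM &&& rc 9 = mk (7999 :: (bl 1 ++ (bl 2 ++ bl 3))) := nb1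
  rw [h4, testBit_mk, List.mem_cons, List.mem_append, List.mem_append] at h3
  rcases h3 with h3 | h3 | h3 | h3
  · exact Or.inl h3
  · exact Or.inr ⟨1, by decide, h3⟩
  · exact Or.inr ⟨2, by decide, h3⟩
  · exact Or.inr ⟨3, by decide, h3⟩

theorem NR_inv {h : GF} (hh : h ∈ HH φ) (h0 : φ h 7999 = 7999) {R : Finset ℕ} (hR : R ⊆ {1, 2, 3})
    (hf : ∀ j ∈ ({1, 2, 3} : Finset ℕ), j ∉ R → φ h (fj j) = fj j) : ∀ i ∈ NR R, φ h i ∈ NR R := by
  intro i hi
  rw [mem_NR] at hi ⊢
  obtain ⟨l, hl, hil⟩ := hi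
  have h123 : ∀ j ∈ ({1, 2, 3} : Finset ℕ), j < 4 ∧ 0 ≠ j := by decide
  obtain ⟨hl4, hl0⟩ := h123 l (hR hl)
  have hin := bl_lt l hl4 i hil
  have h1 : FM.testBit (φ h i) = true := (hh i).mp (bl_F l hl4 i hil)
  have h2 : (rc 9).testBit (φ h i) = true := (rc_inv C (c := 9) (by norm_num) h0 hin).mpr (cross_ne (j := 0) (by norm_num) hl4 hl0 hil)
  rcases mem_nb1 C h1 h2 with h3 | ⟨m, hm, him⟩
  · exfalso
    have h4 : i = 7999 := (φ h).injective (h3.trans h0.symm)
    rw [h4] at hil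
    exact hl0 (bl_disj 0 (by norm_num) l hl4 hil)
  · by_cases hmR : m ∈ R
    · exact ⟨m, hmR, him⟩
    exfalso
    obtain ⟨hm4, hm0⟩ := h123 m hm
    have h5 := hf m hm hmR
    obtain ⟨h6, h7⟩ := fj_pt m hm4
    rw [← h6] at h5
    have hml : m ≠ l := fun e => hmR (e ▸ hl)
    have h8 := (rc_inv C h7 h5 hin).mpr (cross_ne hm4 hl4 hml hil)
    have h9 := cross_eq hm4 him h8
    rw [h6] at h5
    have h10 : i = fj m := (φ h).injective (h9.trans h5.symm)
    rw [h10] at hil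
    exact hml (bl_disj m hm4 l hl4 hil)

theorem conj_fix' {k h : GF} {y z : ℕ} (hk : φ k y = z) (hy : φ h y = y) : φ (k * h * k⁻¹) z = z := by
  have h1 : φ k⁻¹ z = y := by
    rw [← hk, map_inv]; exact (φ k).symm_apply_apply y
  rw [map_mul, map_mul, Equiv.Perm.mul_apply, Equiv.Perm.mul_apply, h1, hy, hk]

/-- conjugating a fixed lane of a block into the base lane -/
theorem to_fj {j y : ℕ} (hj : j < 4) (hy : y ∈ bl j) :
    ∃ k ∈ HH φ, φ k y = fj j ∧ ∀ i < 4, i ≠ j → φ k (fj i) = fj i := by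
  rcases tail_iff j hj y hy with hy | hy
  swap
  · refine ⟨1, (HH φ).one_mem, by rw [map_one, hy]; rfl, fun i _ _ => by rw [map_one]; rfl⟩
  have h := allK_spec cnj j hj
  rw [List.all_eq_true] at h
  have h1 := h y hy
  rw [List.any_eq_true] at h1
  obtain ⟨e, he, h2⟩ := h1
  rw [Bool.and_eq_true, List.any_eq_true] at h2
  obtain ⟨⟨c, hc, hce⟩, h3⟩ := h2
  have hce : c = e.1 := Nat.eq_of_beq_eq_true hce
  have h4 := List.all_eq_true.mp TW_ok e he
  rw [Bool.and_eq_true, Bool.and_eq_true] at h4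
  obtain ⟨h5, h6, h7⟩ := h4
  have h6' : e.2.2 < 10 := Nat.le_of_ble_eq_true h6
  obtain ⟨hcb, -⟩ := tail_ne j hj c hc
  have hcn := bl_lt j hj c hcb
  have h8 := wfn_T (lt10_spec h5) (lt_of_lt_of_le (C.hpt _ h6') (by norm_num)) h7
  obtain ⟨-, h9⟩ := C.T_word h6' h8
  have h10 : C.T c = Wx xx (twd e) := by
    rw [hce, h9]
    unfold twd
    rw [Wx_append, Wx_cons, Wx_reverse (fun c hc => hx2 c (lt10_spec h5 c hc)), mul_assoc]
  have hyn := bl_lt j hj y (tail_ne j hj y hy).1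
  have hwlt : ∀ c ∈ twd e, c < 10 := by
    unfold twd
    apply app_lt (lt10_spec h5)
    intro d hd
    rcases List.mem_cons.1 hd with rfl | hd
    · exact h6'
    · exact lt10_spec h5 d (List.mem_reverse.1 hd)
  refine ⟨C.T c, T_HH C (bl_F j hj c hcb), ?_, ?_⟩
  · rw [h10, C.φ_word]
    exact wfn_T hwlt (lt_of_lt_of_le hyn (by norm_num)) h3
  · intro i hi hij
    obtain ⟨h11, h12⟩ := fj_pt i hi
    have h13 := cross_ne hi hj hij hcb
    rw [C.hrc _ h12 c hcn] at h13
    have h14 : φ (C.T (pt (cj i))) c = c := by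
      have : xx (cj i) = Wx xx [cj i] := by rw [Wx_cons, Wx_nil, mul_one]
      rw [C.T_pt h12, this, C.φ_word]
      exact h13
    rw [← h11]
    exact (C.comm_iff hcn (C.hpt _ h12)).mpr h14

theorem conj_pw {k h : GF} {p : ℕ} (hh : h ^ p = 1) : (k * h * k⁻¹) ^ p = 1 := by
  rw [_root_.conj_pow, hh, mul_one, mul_inv_cancel]

/-- conjugating the fixed lanes into the base lanes -/
theorem steps {p : ℕ} (hp : p.Prime) (h5 : 5 ≤ p) : ∀ (m : ℕ) (R : Finset ℕ) (h : GF), R ⊆ {1, 2, 3} → R.card = m →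
    h ∈ HH φ → h ^ p = 1 → φ h 7999 = 7999 → (∀ j ∈ ({1, 2, 3} : Finset ℕ), j ∉ R → φ h (fj j) = fj j) →
    ∃ k ∈ HH φ, φ (k * h * k⁻¹) 7999 = 7999 ∧ ∀ j ∈ ({1, 2, 3} : Finset ℕ), φ (k * h * k⁻¹) (fj j) = fj j := by
  intro m
  induction m with
  | zero =>
    intro R h _ hR _ _ h0 hf
    rw [Finset.card_eq_zero] at hR
    refine ⟨1, (HH φ).one_mem, ?_, ?_⟩
    · rw [one_mul, inv_one, mul_one]; exact h0
    · intro j hj
      rw [one_mul, inv_one, mul_one]
      exact hf j hj (by rw [hR]; simp)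
  | succ m ih =>
    intro R h hR hRc hh hhp h0 hf
    have h123 : ∀ j ∈ ({1, 2, 3} : Finset ℕ), j < 4 ∧ 0 ≠ j := by decide
    have hc := NR_card R (Finset.mem_powerset.mpr hR)
    have hm3 : R.card ≤ 3 := Finset.card_le_card hR
    obtain ⟨y, hy, hyy⟩ := ex_fix hp hhp (NR R) (NR_inv C hh h0 hR hf) (by
      rw [hc, hRc]
      intro hd
      rcases (Nat.Prime.dvd_mul hp).mp hd with hd | hd
      · have h3 : p ∣ 3 ^ 2 := hd
        have h4 := Nat.le_of_dvd (by norm_num) (hp.dvd_of_dvd_pow h3)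
        omega
      · have h3 := Nat.le_of_dvd (by omega) hd
        omega)
    rw [mem_NR] at hy
    obtain ⟨j, hj, hyj⟩ := hy
    obtain ⟨hj4, hj0⟩ := h123 j (hR hj)
    obtain ⟨k, hk, hky, hkf⟩ := to_fj C hj4 hyj
    have hk0 : φ k 7999 = 7999 := hkf 0 (by norm_num) hj0
    obtain ⟨k', hk', h1, h2⟩ := ih (R.erase j) (k * h * k⁻¹) ((Finset.erase_subset _ _).trans hR)
      (by rw [Finset.card_erase_of_mem hj, hRc]; rfl) ((HH φ).mul_mem ((HH φ).mul_mem hk hh) ((HH φ).inv_mem hk))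
      (conj_pw C hhp) (conj_fix' C hk0 h0) (by
        intro i hi hiR
        by_cases hij : i = j
        · rw [hij]; exact conj_fix' C hky hyy
        · exact conj_fix' C (hkf i (h123 i hi).1 hij) (hf i hi (fun h3 => hiR (Finset.mem_erase.mpr ⟨hij, h3⟩))))
    have e : k' * k * h * (k' * k)⁻¹ = k' * (k * h * k⁻¹) * k'⁻¹ := by group
    refine ⟨k' * k, (HH φ).mul_mem hk' hk, ?_, ?_⟩
    · rw [e]; exact h1
    · intro i hi
      rw [e]; exact h2 i hi

/-- the whole component is fixed -/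
theorem comp_fix {p : ℕ} (hp : p.Prime) (h5 : 5 ≤ p) {h : GF} (hh : h ∈ HH φ) (hhp : h ^ p = 1) (h0 : φ h 7999 = 7999)
    (hf : ∀ j ∈ ({1, 2, 3} : Finset ℕ), φ h (fj j) = fj j) : ∀ j < 4, ∀ i ∈ bl j, φ h i = i := by
  have hf4 : ∀ j < 4, φ h (fj j) = fj j := by
    intro j hj
    interval_cases j
    · exact h0
    · exact hf 1 (by decide)
    · exact hf 2 (by decide)
    · exact hf 3 (by decide)
  have hinv : ∀ j < 4, ∀ i ∈ bl j, φ h i ∈ bl j := by
    intro j hj i hi
    by_cases hj0 : j = 0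
    · subst hj0
      have hin := bl_lt 0 hj i hi
      have h1 : FM.testBit (φ h i) = true := (hh i).mp (bl_F 0 hj i hi)
      have k : ∀ j, j < 4 → 0 ≠ j → (rc (cj j)).testBit (φ h i) = true := by
        intro j hj hj0
        obtain ⟨h6, h7⟩ := fj_pt j hj
        exact (rc_inv C h7 (by rw [h6]; exact hf4 j hj) hin).mpr (cross_ne hj (by norm_num) hj0.symm hi)
      have h2 : (rc 4).testBit (φ h i) = true := k 1 (by norm_num) (by norm_num)
      have h3 : (rc 7).testBit (φ h i) = true := k 2 (by norm_num) (by norm_num)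
      have h4 : (rc 2).testBit (φ h i) = true := k 3 (by norm_num) (by norm_num)
      have h6 : (((FM &&& rc 4) &&& rc 7) &&& rc 2).testBit (φ h i) = true := by
        rw [Nat.testBit_and, Nat.testBit_and, Nat.testBit_and, h1, h2, h3, h4]; rfl
      have h7 : ((FM &&& rc 4) &&& rc 7) &&& rc 2 = mk (bl 0 ++ [8002, 8004, 8005]) := nb0
      rw [h7, testBit_mk, List.mem_append] at h6
      rcases h6 with h6 | h6
      · exact h6
      · exfalso
        have h8 : ∀ x ∈ [8002, 8004, 8005], ∃ m < 4, 0 ≠ m ∧ fj m = x := by decide +kernel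
        obtain ⟨m, hm, hm0, hmx⟩ := h8 _ h6
        have h9 : i = fj m := (φ h).injective (hmx.symm.trans (hf4 m hm).symm)
        rw [h9] at hi
        exact hm0 (bl_disj m hm 0 (by norm_num) hi).symm
    · have hR : ({j} : Finset ℕ) ⊆ {1, 2, 3} := by
        intro x hx
        rw [Finset.mem_singleton] at hx
        subst hx
        interval_cases x
        · exact absurd rfl hj0
        · decide
        · decide
        · decide
      have h1 := NR_inv C hh h0 hR (fun i hi _ => hf i hi) i (mem_NR.mpr ⟨j, Finset.mem_singleton_self _, hi⟩)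
      rw [mem_NR] at h1
      obtain ⟨m, hm, him⟩ := h1
      rw [Finset.mem_singleton] at hm
      rwa [hm] at him
  intro j hj i hi
  rcases tail_iff j hj i hi with hi' | hi'
  swap
  · rw [hi']; exact hf4 j hj
  obtain ⟨h6, h7⟩ := fj_pt j hj
  have hcomm : h * xx (cj j) = xx (cj j) * h := by
    have h8 := (C.fix_iff (C.hpt _ h7) h).1 (by rw [h6]; exact hf4 j hj)
    rwa [C.T_pt h7] at h8
  refine pair_fix (φ := φ) hp h5 hhp hcomm (hx2 _ h7) 4 ((bl j).tail.toFinset) (tail_card j hj) (le_refl _) ?_ ?_ i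
    (List.mem_toFinset.mpr hi')
  · intro x hx
    rw [List.mem_toFinset] at hx ⊢
    obtain ⟨h8, h9⟩ := tail_ne j hj x hx
    rcases tail_iff j hj _ (hinv j hj x h8) with h10 | h10
    · exact h10
    · exact absurd ((φ h).injective (h10.trans (hf4 j hj).symm)) h9
  · intro x hx
    rw [List.mem_toFinset] at hx
    have h8 := allK_spec free j hj
    rw [List.all_eq_true] at h8
    have h9 := h8 x hx
    rw [List.any_eq_true] at h9
    obtain ⟨x', hx', h10⟩ := h9
    rw [bandK_eq_true] at h10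
    have hne : x ≠ x' := by
      intro e
      have h11 : Nat.beq x x' = true := by rw [e]; exact Nat.beq_refl _
      rw [h11] at h10
      exact absurd h10.1 (by decide)
    have h12 : φ (xx (cj j)) x = x' := by
      have : xx (cj j) = Wx xx [cj j] := by rw [Wx_cons, Wx_nil, mul_one]
      rw [this, C.φ_word]
      exact wfn_T (by intro c hc; rw [List.mem_singleton] at hc; rw [hc]; exact h7)
        (lt_of_lt_of_le (bl_lt j hj x (tail_ne j hj x hx).1) (by norm_num)) h10.2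
    rw [h12]
    exact ⟨List.mem_toFinset.mpr hx', Ne.symm hne⟩

theorem class_fix {p : ℕ} (hp : p.Prime) (h5 : 5 ≤ p) {h : GF} (hh : h ∈ HH φ) (hhp : h ^ p = 1)
    {en : List (ℕ × List ℕ × Bool)} {el cl : List ℕ} (he : entB en el = true) (hel : ∀ l ∈ el, φ h l = l)
    (hc : clsK nets rc VF en = mk cl) (hcard : cl.toFinset.card = 3) : ∀ i ∈ cl, φ h i = i := by
  have hent : ∀ e ∈ en, lt10 e.2.1 = true ∧ e.1 < 10 ∧ ∃ l ∈ el, laneT tabs e.2.1 (pt e.1) l = true := by
    intro e hee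
    have h1 := List.all_eq_true.mp he e hee
    rw [Bool.and_eq_true, Bool.and_eq_true, List.any_eq_true] at h1
    obtain ⟨h1, h2, l, hl, h3⟩ := h1
    exact ⟨h1, Nat.le_of_ble_eq_true h2, l, hl, h3⟩
  have key : ∀ i, i ∈ cl → φ h i ∈ cl := by
    intro i hi
    rw [← testBit_mk, ← hc] at hi ⊢
    refine C.cls_comm (V := VF) (L := en) ?_ ?_ ?_ hi
    · intro e hee
      obtain ⟨h1, h2, -⟩ := hent e hee
      exact ⟨h2, lt10_spec h1⟩
    · intro e hee
      obtain ⟨h1, h2, l, hl, h3⟩ := hent e hee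
      have h4 := laneT_spec c_nets tabs_ok (lt10_spec h1) (lt_of_lt_of_le (C.hpt _ h2) (by norm_num)) h3
      exact C.ent_comm ⟨h2, lt10_spec h1⟩ h4 (hel l hl)
    · intro i hi
      have h1 : ((2 ^ 31671 - 1) ^^^ FM).testBit i = true := hi
      rw [Nat.testBit_xor, Nat.testBit_two_pow_sub_one] at h1
      have hin : i < 31671 := by
        by_contra hcon
        have h2 : decide (i < 31671) = false := by simpa using hcon
        rw [h2, Bool.false_xor] at h1
        exact hcon (F_ltn C h1)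
      refine ⟨hin, ?_⟩
      have h2 : decide (i < 31671) = true := by simpa using hin
      rw [h2] at h1
      have h3 : FM.testBit i = false := by
        cases hb : FM.testBit i
        · rfl
        · rw [hb] at h1; exact absurd h1 (by decide)
      have h4 : FM.testBit (φ h i) = false := by
        rw [Bool.eq_false_iff] at h3 ⊢
        exact fun h5 => h3 ((hh i).mpr h5)
      show ((2 ^ 31671 - 1) ^^^ FM).testBit (φ h i) = true
      have h5 : decide (φ h i < 31671) = true := by simpa using C.hlt h i hin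
      rw [Nat.testBit_xor, Nat.testBit_two_pow_sub_one, h5, h4]; rfl
  intro i hi
  exact all_fix (φ := φ) hp hhp 3 cl.toFinset hcard (by omega)
    (fun i hi => List.mem_toFinset.mpr (key i (List.mem_toFinset.mp hi))) i (List.mem_toFinset.mpr hi)

/-- elements of prime order at least five are trivial -/
theorem no_p (hbase : ∀ g, (∀ b ∈ [2, 1640, 224, 1, 0], φ g b = b) → g = 1) {p : ℕ} (hp : p.Prime) (h5 : 5 ≤ p) {h : GF}
    (hh : h ∈ HH φ) (hhp : h ^ p = 1) : h = 1 := by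
  -- a fixed lane in F
  let X : Finset ℕ := (Finset.range (2 ^ 15)).filter (fun i => FM.testBit i = true)
  have hXm : ∀ i, i ∈ X ↔ FM.testBit i = true := by
    intro i
    simp only [X, Finset.mem_filter, Finset.mem_range]
    exact ⟨fun h => h.2, fun h => ⟨lt_of_lt_of_le (F_ltn C h) (by norm_num), h⟩⟩
  have hXc : X.card = 324 := by
    rw [← F_pop, ← ncard_bits F_lt, ← Set.ncard_coe_finset]
    congr 1
    ext i
    rw [Finset.mem_coe, hXm]; rfl
  obtain ⟨y, hy, hyy⟩ := ex_fix hp hhp X (fun i hi => (hXm _).mpr ((hh i).mp ((hXm i).mp hi))) (by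
    rw [hXc]
    intro hd
    have h1 : p ∣ 2 ^ 2 * 3 ^ 4 := hd
    rcases (Nat.Prime.dvd_mul hp).mp h1 with h1 | h1
    · have := Nat.le_of_dvd (by norm_num) (hp.dvd_of_dvd_pow h1)
      omega
    · have := Nat.le_of_dvd (by norm_num) (hp.dvd_of_dvd_pow h1)
      omega)
  obtain ⟨k, hk, hky⟩ := orb1 C ((hXm y).mp hy)
  -- conjugate
  have hk' : φ k⁻¹ y = 7999 := by
    rw [← hky, map_inv]; exact (φ k).symm_apply_apply _
  have hh1 : k⁻¹ * h * (k⁻¹)⁻¹ ∈ HH φ := (HH φ).mul_mem ((HH φ).mul_mem ((HH φ).inv_mem hk) hh) ((HH φ).inv_mem ((HH φ).inv_mem hk))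
  obtain ⟨k', hk2, h70, hf⟩ := steps C hp h5 3 {1, 2, 3} _ (Finset.Subset.refl _) (by decide) hh1 (conj_pw C hhp)
    (conj_fix' C hk' hyy) (fun j hj hn => absurd hj hn)
  set h2 := k' * (k⁻¹ * h * (k⁻¹)⁻¹) * k'⁻¹ with hh2
  have hm2 : h2 ∈ HH φ := (HH φ).mul_mem ((HH φ).mul_mem hk2 hh1) ((HH φ).inv_mem hk2)
  have hp2 : h2 ^ p = 1 := conj_pw C (conj_pw C hhp)
  have hcf := comp_fix C hp h5 hm2 hp2 h70 hf
  have hbl : ∀ l ∈ (el2 ++ (el224 ++ (el1640 ++ [0, 1]))), φ h2 l = l := by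
    intro l hl
    have h3 := List.all_eq_true.mp el_mem l hl
    rw [List.any_eq_true] at h3
    obtain ⟨b, hb, h4⟩ := h3
    rw [List.any_eq_true] at h4
    obtain ⟨x, hx, h6⟩ := h4
    have h6 : x = l := Nat.eq_of_beq_eq_true h6
    obtain ⟨j, hj, hbj⟩ := List.getElem_of_mem hb
    have hlen : BB.length = 4 := by decide
    have hbl : bl j = b := by
      unfold bl
      rw [nthK_eq, List.getElem?_eq_getElem hj]
      exact hbj
    rw [← h6]
    apply hcf j (by omega)
    rw [hbl]; exact hx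
  have f2 := class_fix C hp h5 hm2 hp2 e2 (fun l hl => hbl l (by simp [hl])) c2 (by decide +kernel) 2 (by decide)
  have f224 := class_fix C hp h5 hm2 hp2 e224 (fun l hl => hbl l (by simp [hl])) c224 (by decide +kernel) 224 (by decide)
  have f1640 := class_fix C hp h5 hm2 hp2 e1640 (fun l hl => hbl l (by simp [hl])) c1640 (by decide +kernel) 1640 (by decide)
  have h1 : h2 = 1 := by
    apply hbase
    intro b hb
    simp only [List.mem_cons, List.not_mem_nil, or_false] at hb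
    rcases hb with rfl | rfl | rfl | rfl | rfl
    · exact f2
    · exact f1640
    · exact f224
    · exact hbl 1 (by simp)
    · exact hbl 0 (by simp)
  have h3 : k⁻¹ * h * (k⁻¹)⁻¹ = 1 := by
    have h4 : k' * (k⁻¹ * h * (k⁻¹)⁻¹) = k' := by
      rw [hh2] at h1
      rw [mul_inv_eq_one] at h1; exact h1
    exact mul_left_cancel (h4.trans (mul_one k').symm)
  have h4 : k⁻¹ * h = k⁻¹ := by rw [mul_inv_eq_one] at h3; exact h3
  exact mul_left_cancel (h4.trans (mul_one k⁻¹).symm)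

end ctx

end Cfsg.Agent.Lib.Fi23M3
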