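import Cfsg.Agent.Lib.Fi23M3Data
import Cfsg.Agent.Lib.LabHom

/-!
# Kernel checks for the maximal subgroup `3^{1+8}.2^{1+6}.3^{1+2}.2S_4` of `Fi₂₃`
-/

set_option autoImplicit false
set_option linter.all false
set_option maxRecDepth 100000
set_option exponentiation.threshold 50000

namespace Cfsg.Agent.Lib.Fi23M3Chk

open Cfsg.Agent.Lib.BenesPerm Cfsg.Agent.Lib.BenesAct Cfsg.Agent.Lib.BenesWord
open Cfsg.Agent.Lib.LaneTools Cfsg.Agent.Lib.TransLanes Cfsg.Agent.Lib.Fi23Rel Cfsg.Agent.Lib.Fi23NetsA
open Cfsg.Agent.Lib.Fi23Out Cfsg.Agent.Lib.Fi23M3Data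
open Cfsg.Agent.Lib.CosetMain Cfsg.Agent.Lib.CoxBridge
open Cfsg.Agent.Lib.BenesPlane
open Cfsg.Agent.Lib.SliceK4 (allK allK_spec)

/-- letters below 10 -/
def lt10 (w : List ℕ) : Bool := w.all (fun c => Nat.blt c 10)

theorem lt10_spec {w : List ℕ} (h : lt10 w = true) : ∀ c ∈ w, c < 10 := by
  intro c hc
  exact Nat.le_of_ble_eq_true (List.all_eq_true.mp h c hc)

/-- mask of a list of lanes -/
noncomputable def mk (l : List ℕ) : ℕ := List.rec (motive := fun _ => ℕ) 0 (fun i _ ih => Nat.lor (Nat.pow 2 i) ih) l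

/-- block -/
noncomputable def bl (j : ℕ) : List ℕ := nthK [] BB j
/-- base lanes -/
def ff : List ℕ := [7999, 8002, 8004, 8005]
/-- their letters -/
def fl : List ℕ := [9, 4, 7, 2]
noncomputable def fj (j : ℕ) : ℕ := nthK 0 ff j
noncomputable def cj (j : ℕ) : ℕ := nthK 0 fl j

theorem F_pop : popK 15 FM = 324 := by decide +kernel
theorem F_lt : FM < 2 ^ 2 ^ 15 := by decide +kernel
theorem F_n : Nat.land FM (Nat.sub (Nat.pow 2 31671) 1) = FM := by decide +kernel
theorem F_inv : invK nets tg FM = true := by decide +kernel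
theorem O2_pop : popK 15 OM2 = 11664 := by decide +kernel
theorem O2_lt : OM2 < 2 ^ 2 ^ 15 := by decide +kernel
theorem O3_pop : popK 15 OM3 = 19683 := by decide +kernel
theorem O3_lt : OM3 < 2 ^ 2 ^ 15 := by decide +kernel
theorem O_cover : Nat.lor (Nat.lor FM OM2) OM3 = Nat.sub (Nat.pow 2 31671) 1 := by decide +kernel
theorem O_12 : Nat.land FM OM2 = 0 := by decide +kernel
theorem O_13 : Nat.land FM OM3 = 0 := by decide +kernel
theorem O_23 : Nat.land OM2 OM3 = 0 := by decide +kernel
theorem r1 : reachK nets (stepsW tg tst1) (2 ^ 7999) (fun V => Nat.beq V FM) = true := by decide +kernel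
theorem r2 : reachK nets (stepsW tg tst2) (2 ^ 2) (fun V => Nat.beq V OM2) = true := by decide +kernel
theorem r3 : reachK nets (stepsW tg tst3) (2 ^ 11) (fun V => Nat.beq V OM3) = true := by decide +kernel
theorem top_inv : invK nets [wW, wV, wY] FM = true := by decide +kernel
theorem top_lt : (lt10 wW && (lt10 wV && lt10 wY)) = true := by decide +kernel

/-- first neighbours -/
theorem nb1 : Nat.land FM (rc 9) = mk (7999 :: (bl 1 ++ (bl 2 ++ bl 3))) := by decide +kernel
theorem nb0 : Nat.land (Nat.land (Nat.land FM (rc 4)) (rc 7)) (rc 2) = mk (bl 0 ++ [8002, 8004, 8005]) := by decide +kernel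

/-- relations between blocks and letters -/
theorem cross : allK 4 (fun j => allK 4 (fun l => (bl l).all (fun i =>
    Bool.rec (motive := fun _ => Bool) (Nat.beq (Nat.land (Nat.shiftRight (rc (cj j)) i) 1) 1)
      (Nat.beq (Nat.land (Nat.shiftRight (rc (cj j)) i) 1) (Bool.rec (motive := fun _ => ℕ) 0 1 (Nat.beq i (fj j)))) (Nat.beq j l)))) = true := by
  decide +kernel

/-- the letter acts on the rest of its block without fixed points -/
theorem free : allK 4 (fun j => (bl j).tail.all (fun i => (bl j).tail.any (fun i' =>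
    bandK (Bool.rec (motive := fun _ => Bool) true false (Nat.beq i i')) (laneT tabs [cj j] i i')))) = true := by decide +kernel

/-- word of an entry -/
def twd (e : ℕ × List ℕ × ℕ) : List ℕ := e.2.1 ++ e.2.2 :: e.2.1.reverse

theorem TW_ok : TW.all (fun e => lt10 e.2.1 && (Nat.blt e.2.2 10 && laneT tabs e.2.1 (pt e.2.2) e.1)) = true := by decide +kernel

/-- conjugating elements -/
theorem cnj : allK 4 (fun j => (bl j).tail.all (fun y => TW.any (fun e => (bl j).tail.any (fun c => Nat.beq c e.1) &&
    laneT tabs (twd e) y (fj j)))) = true := by decide +kernel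

/-! ### classes of lanes -/

noncomputable def VF : ℕ := Nat.xor (Nat.sub (Nat.pow 2 31671) 1) FM

theorem c2 : clsK nets rc VF en2 = mk cl2 := by decide +kernel
theorem c224 : clsK nets rc VF en224 = mk cl224 := by decide +kernel
theorem c1640 : clsK nets rc VF en1640 = mk cl1640 := by decide +kernel

/-- lanes of the entries -/
noncomputable def entB (en : List (ℕ × List ℕ × Bool)) (el : List ℕ) : Bool :=
  en.all (fun e => lt10 e.2.1 && (Nat.blt e.1 10 && el.any (fun l => laneT tabs e.2.1 (pt e.1) l)))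
theorem e2 : entB en2 el2 = true := by decide +kernel
theorem e224 : entB en224 el224 = true := by decide +kernel
theorem e1640 : entB en1640 el1640 = true := by decide +kernel
theorem el_mem : (el2 ++ (el224 ++ (el1640 ++ [0, 1]))).all (fun l => BB.any (fun b => b.any (fun x => Nat.beq x l))) = true := by decide +kernel

/-! ### derived series -/

/-- base lanes fixed -/
noncomputable def fixBase (w : List ℕ) : Bool := [2, 1640, 224, 1, 0].all (fun b => laneT tabs w b b)

/-- commutator of words of involutions -/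
def cmw (u v : List ℕ) : List ℕ := u ++ (v ++ (u.reverse ++ v.reverse))

/-- `y w y⁻¹ w⁻¹ = w` -/
theorem rel_w : fixBase (cmw wY wW ++ wW.reverse) = true := by decide +kernel
/-- the second element -/
def wV2 : List ℕ := wW ++ (wV ++ wW.reverse)
theorem rel_v : fixBase (wV ++ cmw wW wV2) = true := by decide +kernel
theorem rel_u : fixBase (cmw wV wV2 ++ [7, 4, 2]) = true := by decide +kernel
/-- transposition words -/
def tww (l : ℕ) : List ℕ := (TW.filter (fun e => Nat.beq e.1 l)).flatMap twd
def wP1 : List ℕ := 9 :: tww 1791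
def wP2 : List ℕ := 9 :: tww 24364
theorem rel_p1 : fixBase (cmw [2, 4, 7] wP1 ++ wP1.reverse) = true := by decide +kernel
theorem rel_p2 : fixBase (cmw [2, 4, 7] wP2 ++ wP2.reverse) = true := by decide +kernel
def wS : List ℕ := cmw wP1 wP2
def wQ1 : List ℕ := [4, 7]
def wQ2 : List ℕ := tww 2392 ++ tww 2439
theorem rel_q1 : fixBase (cmw wS (wS ++ (wQ1 ++ wS.reverse)) ++ wQ1.reverse) = true := by decide +kernel
theorem rel_q2 : fixBase (cmw wS (wS ++ (wQ2 ++ wS.reverse)) ++ wQ2.reverse) = true := by decide +kernel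
theorem rel_t : fixBase (cmw wQ1 wQ2 ++ [9, 7, 4, 2]) = true := by decide +kernel
def wE1 : List ℕ := 9 :: tww 2407
def wE2 : List ℕ := 9 :: tww 2417
theorem rel_e1 : fixBase (cmw [2, 4, 7, 9] wE1 ++ wE1.reverse) = true := by decide +kernel
theorem rel_e2 : fixBase (cmw [2, 4, 7, 9] wE2 ++ wE2.reverse) = true := by decide +kernel
theorem rel_z : laneT tabs (cmw wE1 wE2) 2 3230 = true := by decide +kernel
theorem all_lt : ([wP1, wP2, wQ1, wQ2, wE1, wE2].all lt10) = true := by decide +kernel

end Cfsg.Agent.Lib.Fi23M3Chk
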