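import Cfsg.Agent.Lib.Fi23M3
import Cfsg.Agent.Lib.Burnside

/-!
# The maximal subgroup `3^{1+8}.2^{1+6}.3^{1+2}.2S_4` of `Fi₂₃`: solvable of derived length ten, maximal
-/

set_option autoImplicit false
set_option linter.all false
set_option maxRecDepth 100000
set_option exponentiation.threshold 50000

namespace Cfsg.Agent.Lib.Fi23M3

/-- numbers with prime factors two and three -/
theorem two_three {n : ℕ} (hn : n ≠ 0) (h : ∀ p, p.Prime → 5 ≤ p → ¬ p ∣ n) : ∃ a b, n = 2 ^ a * 3 ^ b := by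
  obtain ⟨a, m, hm, h1⟩ := Nat.exists_eq_two_pow_mul_odd hn
  have hm0 : m ≠ 0 := by rintro rfl; exact absurd hm (by decide)
  obtain ⟨b, k, hk, h2⟩ := Nat.exists_eq_pow_mul_and_not_dvd hm0 3 (by norm_num)
  have hk1 : k = 1 := by
    by_contra hne
    obtain ⟨q, hq, hqk⟩ := Nat.exists_prime_and_dvd hne
    have hqm : q ∣ m := by rw [h2]; exact hqk.mul_left _
    have hq2 : q ≠ 2 := by
      rintro rfl
      have := hm.not_two_dvd_nat
      exact this hqm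
    have hq3 : q ≠ 3 := by rintro rfl; exact hk hqk
    have hq4 : q ≠ 4 := by rintro rfl; exact absurd hq (by norm_num)
    have h5 : 5 ≤ q := by
      have := hq.two_le
      omega
    exact h q hq h5 (by rw [h1]; exact hqm.mul_left _)
  refine ⟨a, b, ?_⟩
  rw [h1, h2, hk1, mul_one]

section derived

variable {Γ : Type*} [Group Γ]

theorem comm_mem (n : ℕ) {x y : Γ} (hx : x ∈ derivedSeries Γ n) (hy : y ∈ derivedSeries Γ n) :
    x * y * x⁻¹ * y⁻¹ ∈ derivedSeries Γ (n + 1) := Subgroup.commutator_mem_commutator hx hy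

theorem anti {m n : ℕ} (h : m ≤ n) {x : Γ} (hx : x ∈ derivedSeries Γ n) : x ∈ derivedSeries Γ m :=
  derivedSeries_antitone Γ h hx

theorem conj_memD (n : ℕ) {x : Γ} (hx : x ∈ derivedSeries Γ n) (g : Γ) : g * x * g⁻¹ ∈ derivedSeries Γ n :=
  (derivedSeries_normal Γ n).conj_mem x hx g

theorem zero_mem (x : Γ) : x ∈ derivedSeries Γ 0 := by
  rw [derivedSeries_zero]; exact Subgroup.mem_top x

/-- elements which are commutators with an element of a term -/
theorem climb {u p : Γ} (h : u * p * u⁻¹ * p⁻¹ = p) (n : ℕ) (hu : u ∈ derivedSeries Γ n) :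
    ∀ m, m ≤ n + 1 → p ∈ derivedSeries Γ m := by
  intro m
  induction m with
  | zero => intro _; exact zero_mem p
  | succ m ih =>
    intro hm
    have h1 := comm_mem m (anti (by omega) hu) (ih (by omega))
    rwa [h] at h1

theorem climb2 {s q : Γ} (h : s * (s * q * s⁻¹) * s⁻¹ * (s * q * s⁻¹)⁻¹ = q) (n : ℕ) (hs : s ∈ derivedSeries Γ n) :
    ∀ m, m ≤ n + 1 → q ∈ derivedSeries Γ m := by
  intro m
  induction m with
  | zero => intro _; exact zero_mem q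
  | succ m ih =>
    intro hm
    have h1 := comm_mem m (anti (by omega) hs) (conj_memD m (ih (by omega)) s)
    rwa [h] at h1

theorem chain9 {y w v p1 p2 q1 q2 e1 e2 u t : Γ} (hw : y * w * y⁻¹ * w⁻¹ = w)
    (hv : v * (w * (w * v * w⁻¹) * w⁻¹ * (w * v * w⁻¹)⁻¹) = 1)
    (hu : v * (w * v * w⁻¹) * v⁻¹ * (w * v * w⁻¹)⁻¹ = u)
    (h1 : u * p1 * u⁻¹ * p1⁻¹ = p1) (h2 : u * p2 * u⁻¹ * p2⁻¹ = p2)
    (hq1 : ∀ s, s = p1 * p2 * p1⁻¹ * p2⁻¹ → s * (s * q1 * s⁻¹) * s⁻¹ * (s * q1 * s⁻¹)⁻¹ = q1)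
    (hq2 : ∀ s, s = p1 * p2 * p1⁻¹ * p2⁻¹ → s * (s * q2 * s⁻¹) * s⁻¹ * (s * q2 * s⁻¹)⁻¹ = q2)
    (ht : q1 * q2 * q1⁻¹ * q2⁻¹ = t) (he1 : t * e1 * t⁻¹ * e1⁻¹ = e1) (he2 : t * e2 * t⁻¹ * e2⁻¹ = e2) :
    e1 * e2 * e1⁻¹ * e2⁻¹ ∈ derivedSeries Γ 9 := by
  have w1 : w ∈ derivedSeries Γ 1 := climb hw 0 (zero_mem y) 1 (le_refl _)
  have hv' : v = (w * (w * v * w⁻¹) * w⁻¹ * (w * v * w⁻¹)⁻¹)⁻¹ := eq_inv_of_mul_eq_one_left hv
  have vstep : ∀ n, n ≤ 1 → v ∈ derivedSeries Γ n → v ∈ derivedSeries Γ (n + 1) := by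
    intro n hn h
    have h3 := Subgroup.inv_mem _ (comm_mem n (anti hn w1) (conj_memD n h w))
    rw [← hv'] at h3
    exact h3
  have v2 : v ∈ derivedSeries Γ 2 := vstep 1 (le_refl _) (vstep 0 (by omega) (zero_mem v))
  have u3 : u ∈ derivedSeries Γ 3 := by
    rw [← hu]; exact comm_mem 2 v2 (conj_memD 2 v2 w)
  have p14 := climb h1 3 u3 4 (le_refl _)
  have p24 := climb h2 3 u3 4 (le_refl _)
  have s5 := comm_mem 4 p14 p24
  have q16 := climb2 (hq1 _ rfl) 5 s5 6 (le_refl _)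
  have q26 := climb2 (hq2 _ rfl) 5 s5 6 (le_refl _)
  have t7 : t ∈ derivedSeries Γ 7 := by
    rw [← ht]; exact comm_mem 6 q16 q26
  have e18 := climb he1 7 t7 8 (le_refl _)
  have e28 := climb he2 7 t7 8 (le_refl _)
  exact comm_mem 8 e18 e28

theorem not_perfect [Group.IsSolvable Γ] {x : Γ} (hx : x ∈ derivedSeries Γ 9) (h1 : x ≠ 1) :
    derivedSeries Γ 10 ≠ derivedSeries Γ 9 := by
  intro h
  have key : ∀ n, derivedSeries Γ (9 + n) = derivedSeries Γ 9 := by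
    intro n
    induction n with
    | zero => rfl
    | succ n ih =>
      rw [← add_assoc, derivedSeries_succ, ih, ← derivedSeries_succ]
      exact h
  obtain ⟨n, hn⟩ := (inferInstance : Group.IsSolvable Γ).solvable
  have h2 : x ∈ derivedSeries Γ n := by
    by_cases h9 : n ≤ 9
    · exact anti h9 hx
    · have h3 := key (n - 9)
      have h4 : 9 + (n - 9) = n := by omega
      rw [h4] at h3
      rw [h3]; exact hx
  rw [hn, Subgroup.mem_bot] at h2
  exact h1 h2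

end derived

open Cfsg.Spor Cfsg.Agent.Lib.BenesPerm Cfsg.Agent.Lib.BenesAct Cfsg.Agent.Lib.BenesWord
open Cfsg.Agent.Lib.LaneTools Cfsg.Agent.Lib.TransLanes Cfsg.Agent.Lib.Fi23Rel Cfsg.Agent.Lib.Fi23NetsA
open Cfsg.Agent.Lib.Fi23Out Cfsg.Agent.Lib.Fi23M3Data Cfsg.Agent.Lib.Fi23M3Chk
open Cfsg.Agent.Lib.CosetMain Cfsg.Agent.Lib.CoxBridge Cfsg.Agent.Lib.CosetGroup
open Cfsg.Agent.Lib.BenesPlane
open Cfsg.Agent.Lib.SliceK4 (allK allK_spec)
open Cfsg.Agent.Lib.PrimLane (stab orb relIndex_stab)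
open Cfsg.Agent.Lib.Fi23A (c_nets)

variable {φ : GF →* Equiv.Perm ℕ}

section ctx

variable (C : Ctx xx φ nets 15 31671 10 pt rc)
include C

theorem solv [Finite GF] (hbase : ∀ g, (∀ b ∈ [2, 1640, 224, 1, 0], φ g b = b) → g = 1) : Group.IsSolvable (HH φ) := by
  obtain ⟨a, b, h⟩ := two_three (n := Nat.card (HH φ)) Nat.card_pos.ne' (by
    intro p hp h5 hd
    have _ : Fact p.Prime := ⟨hp⟩
    obtain ⟨x, hx⟩ := exists_prime_orderOf_dvd_card' p hd
    have h1 : (x : GF) ^ p = 1 := by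
      have h2 := pow_orderOf_eq_one x
      rw [hx] at h2
      exact congrArg Subtype.val h2
    have h3 := no_p C hbase hp h5 x.2 h1
    have h4 : x = 1 := Subtype.ext h3
    rw [h4, orderOf_one] at hx
    omega)
  exact Cfsg.Agent.Lib.Burnside.isSolvable_of_card_eq _ 2 3 a b Nat.prime_two Nat.prime_three h rfl

theorem one_of_fixBase (hbase : ∀ g, (∀ b ∈ [2, 1640, 224, 1, 0], φ g b = b) → g = 1) {w : List ℕ} (hw : ∀ c ∈ w, c < 10)
    (h : fixBase w = true) : Wx xx w = 1 := by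
  apply hbase
  intro b hb
  have h1 := List.all_eq_true.mp h b hb
  rw [C.φ_word]
  refine wfn_T hw ?_ h1
  simp only [List.mem_cons, List.not_mem_nil, or_false] at hb
  rcases hb with rfl | rfl | rfl | rfl | rfl <;> norm_num

omit C in
theorem Wx_cmw {u v : List ℕ} (hu : ∀ c ∈ u, c < 10) (hv : ∀ c ∈ v, c < 10) :
    Wx xx (cmw u v) = Wx xx u * Wx xx v * (Wx xx u)⁻¹ * (Wx xx v)⁻¹ := by
  unfold cmw
  rw [Wx_append, Wx_append, Wx_append, Wx_reverse (fun c hc => hx2 c (hu c hc)), Wx_reverse (fun c hc => hx2 c (hv c hc))]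
  group

omit C in
theorem cmw_lt {u v : List ℕ} (hu : ∀ c ∈ u, c < 10) (hv : ∀ c ∈ v, c < 10) : ∀ c ∈ cmw u v, c < 10 := by
  unfold cmw
  exact app_lt hu (app_lt hv (app_lt (fun c hc => hu c (List.mem_reverse.1 hc)) (fun c hc => hv c (List.mem_reverse.1 hc))))

/-- a transposition word is in `HH` -/
theorem tww_mem {l : ℕ} {e : ℕ × List ℕ × ℕ} (he : TW.filter (fun e => Nat.beq e.1 l) = [e]) (hF : FM.testBit l = true) :
    Wx xx (tww l) ∈ HH φ ∧ ∀ c ∈ tww l, c < 10 := by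
  have hmem : e ∈ TW.filter (fun e => Nat.beq e.1 l) := by rw [he]; exact List.mem_singleton_self _
  rw [List.mem_filter] at hmem
  obtain ⟨he1, he2⟩ := hmem
  have he2 : e.1 = l := Nat.eq_of_beq_eq_true he2
  have h1 : tww l = twd e := by
    unfold tww
    rw [he]
    simp
  have h4 := List.all_eq_true.mp TW_ok e he1
  rw [Bool.and_eq_true, Bool.and_eq_true] at h4
  obtain ⟨h5, h6, h7⟩ := h4
  have h6' : e.2.2 < 10 := Nat.le_of_ble_eq_true h6
  have h8 := wfn_T (lt10_spec h5) (lt_of_lt_of_le (C.hpt _ h6') (by norm_num)) h7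
  obtain ⟨-, h9⟩ := C.T_word h6' h8
  have h10 : C.T l = Wx xx (twd e) := by
    rw [← he2, h9]
    unfold twd
    rw [Wx_append, Wx_cons, Wx_reverse (fun c hc => hx2 c (lt10_spec h5 c hc)), mul_assoc]
  rw [h1]
  refine ⟨?_, ?_⟩
  · rw [← h10]; exact T_HH C hF
  · unfold twd
    apply app_lt (lt10_spec h5)
    intro d hd
    rcases List.mem_cons.1 hd with rfl | hd
    · exact h6'
    · exact lt10_spec h5 d (List.mem_reverse.1 hd)

end ctx

end Cfsg.Agent.Lib.Fi23M3
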