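import Cfsg.Agent.Lib.Fi23M3b

/-!
# The maximal subgroup `3^{1+8}.2^{1+6}.3^{1+2}.2S_4` of `Fi₂₃`: derived series and maximality
-/

set_option autoImplicit false
set_option linter.all false
set_option maxRecDepth 100000
set_option exponentiation.threshold 50000

namespace Cfsg.Agent.Lib.Fi23M3

open Cfsg.Spor Cfsg.Agent.Lib.BenesPerm Cfsg.Agent.Lib.BenesAct Cfsg.Agent.Lib.BenesWord
open Cfsg.Agent.Lib.LaneTools Cfsg.Agent.Lib.TransLanes Cfsg.Agent.Lib.Fi23Rel Cfsg.Agent.Lib.Fi23NetsA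
open Cfsg.Agent.Lib.Fi23Out Cfsg.Agent.Lib.Fi23M3Data Cfsg.Agent.Lib.Fi23M3Chk
open Cfsg.Agent.Lib.CosetMain Cfsg.Agent.Lib.CoxBridge Cfsg.Agent.Lib.CosetGroup
open Cfsg.Agent.Lib.BenesPlane
open Cfsg.Agent.Lib.SliceK4 (allK allK_spec)
open Cfsg.Agent.Lib.PrimLane (stab orb relIndex_stab)
open Cfsg.Agent.Lib.Fi23A (c_nets)

theorem m12_pop : popK 15 (Nat.lor FM OM2) = 11988 := by decide +kernel
theorem m12_lt : Nat.lor FM OM2 < 2 ^ 2 ^ 15 := by decide +kernel
theorem m13_pop : popK 15 (Nat.lor FM OM3) = 20007 := by decide +kernel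
theorem m13_lt : Nat.lor FM OM3 < 2 ^ 2 ^ 15 := by decide +kernel
theorem fb7999 : FM.testBit 7999 = true := by decide +kernel
theorem fb2 : FM.testBit 2 = false := by decide +kernel
theorem fbl : ∀ l ∈ [1791, 24364, 2392, 2439, 2407, 2417], FM.testBit l = true ∧
    (TW.filter (fun e => Nat.beq e.1 l)).length = 1 := by decide +kernel

variable {φ : GF →* Equiv.Perm ℕ}

section ctx

variable (C : Ctx xx φ nets 15 31671 10 pt rc)
include C

theorem tw_ok {l : ℕ} (hl : l ∈ [1791, 24364, 2392, 2439, 2407, 2417]) :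
    Wx xx (tww l) ∈ HH φ ∧ ∀ c ∈ tww l, c < 10 := by
  obtain ⟨h1, h2⟩ := fbl l hl
  obtain ⟨e, he⟩ := List.length_eq_one_iff.mp h2
  exact tww_mem C he h1

theorem mem_letters {w : List ℕ} (hw : ∀ c ∈ w, c ∈ [2, 4, 7, 9]) : Wx xx w ∈ HH φ := by
  induction w with
  | nil => exact (HH φ).one_mem
  | cons c w ih =>
    rw [Wx_cons]
    refine (HH φ).mul_mem ?_ (ih (fun d hd => hw d (List.mem_cons_of_mem _ hd)))
    have h1 : xx c = Wx xx [c] := by rw [Wx_cons, Wx_nil, mul_one]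
    rw [h1]
    apply mem_HH_inv C F_inv
    have h2 : ∀ c ∈ [2, 4, 7, 9], [c] ∈ tg := by decide
    exact h2 c (hw c List.mem_cons_self)

theorem D9 (hbase : ∀ g, (∀ b ∈ [2, 1640, 224, 1, 0], φ g b = b) → g = 1) :
    ∃ x ∈ derivedSeries (HH φ) 9, x ≠ 1 := by
  have htl : lt10 wW = true ∧ lt10 wV = true ∧ lt10 wY = true := by
    have h := top_lt
    rw [Bool.and_eq_true, Bool.and_eq_true] at h
    exact h
  obtain ⟨lW, lV, lY⟩ := htl
  have lW := lt10_spec lW
  have lV := lt10_spec lV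
  have lY := lt10_spec lY
  have mW : Wx xx wW ∈ HH φ := mem_HH_inv C top_inv (by simp)
  have mV : Wx xx wV ∈ HH φ := mem_HH_inv C top_inv (by simp)
  have mY : Wx xx wY ∈ HH φ := mem_HH_inv C top_inv (by simp)
  have hrev : ∀ w : List ℕ, (∀ c ∈ w, c < 10) → Wx xx w.reverse = (Wx xx w)⁻¹ := fun w hw =>
    Wx_reverse (fun c hc => hx2 c (hw c hc))
  have rv : ∀ {w : List ℕ}, (∀ c ∈ w, c < 10) → ∀ c ∈ w.reverse, c < 10 := fun hw c hc => hw c (List.mem_reverse.1 hc)
  obtain ⟨m1, l1⟩ := tw_ok C (l := 1791) (by simp)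
  obtain ⟨m2, l2⟩ := tw_ok C (l := 24364) (by simp)
  obtain ⟨m3, l3⟩ := tw_ok C (l := 2392) (by simp)
  obtain ⟨m4, l4⟩ := tw_ok C (l := 2439) (by simp)
  obtain ⟨m5, l5⟩ := tw_ok C (l := 2407) (by simp)
  obtain ⟨m6, l6⟩ := tw_ok C (l := 2417) (by simp)
  have m9 : Wx xx [9] ∈ HH φ := mem_letters C (by decide)
  have l9 : ∀ c ∈ [9], c < 10 := by decide
  have c9 : ∀ w : List ℕ, (9 :: w) = [9] ++ w := fun w => rfl
  have mP1 : Wx xx wP1 ∈ HH φ := by
    unfold wP1; rw [c9, Wx_append]; exact (HH φ).mul_mem m9 m1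
  have mP2 : Wx xx wP2 ∈ HH φ := by
    unfold wP2; rw [c9, Wx_append]; exact (HH φ).mul_mem m9 m2
  have mE1 : Wx xx wE1 ∈ HH φ := by
    unfold wE1; rw [c9, Wx_append]; exact (HH φ).mul_mem m9 m5
  have mE2 : Wx xx wE2 ∈ HH φ := by
    unfold wE2; rw [c9, Wx_append]; exact (HH φ).mul_mem m9 m6
  have mQ1 : Wx xx wQ1 ∈ HH φ := mem_letters C (by decide)
  have mQ2 : Wx xx wQ2 ∈ HH φ := by
    unfold wQ2; rw [Wx_append]; exact (HH φ).mul_mem m3 m4
  have lP1 : ∀ c ∈ wP1, c < 10 := by unfold wP1; rw [c9]; exact app_lt l9 l1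
  have lP2 : ∀ c ∈ wP2, c < 10 := by unfold wP2; rw [c9]; exact app_lt l9 l2
  have lE1 : ∀ c ∈ wE1, c < 10 := by unfold wE1; rw [c9]; exact app_lt l9 l5
  have lE2 : ∀ c ∈ wE2, c < 10 := by unfold wE2; rw [c9]; exact app_lt l9 l6
  have lQ1 : ∀ c ∈ wQ1, c < 10 := by decide
  have lQ2 : ∀ c ∈ wQ2, c < 10 := by unfold wQ2; exact app_lt l3 l4
  have mU : Wx xx [2, 4, 7] ∈ HH φ := mem_letters C (by decide)
  have lU : ∀ c ∈ [2, 4, 7], c < 10 := by decide
  have mT : Wx xx [2, 4, 7, 9] ∈ HH φ := mem_letters C (by decide)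
  have lT : ∀ c ∈ [2, 4, 7, 9], c < 10 := by decide
  have lV2 : ∀ c ∈ wV2, c < 10 := app_lt lW (app_lt lV (rv lW))
  have eV2 : Wx xx wV2 = Wx xx wW * Wx xx wV * (Wx xx wW)⁻¹ := by
    unfold wV2
    rw [Wx_append, Wx_append, hrev wW lW, mul_assoc]
  have lS : ∀ c ∈ wS, c < 10 := cmw_lt lP1 lP2
  have eS : Wx xx wS = Wx xx wP1 * Wx xx wP2 * (Wx xx wP1)⁻¹ * (Wx xx wP2)⁻¹ := Wx_cmw lP1 lP2
  -- relations
  have one := fun (w : List ℕ) (hw : ∀ c ∈ w, c < 10) (h : fixBase w = true) => one_of_fixBase C hbase hw h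
  have comm_rel : ∀ u p : List ℕ, (∀ c ∈ u, c < 10) → (∀ c ∈ p, c < 10) → fixBase (cmw u p ++ p.reverse) = true →
      Wx xx u * Wx xx p * (Wx xx u)⁻¹ * (Wx xx p)⁻¹ = Wx xx p := by
    intro u p hu hp h
    have h1 := one _ (app_lt (cmw_lt hu hp) (rv hp)) h
    rw [Wx_append, Wx_cmw hu hp, hrev p hp] at h1
    exact eq_of_mul_inv_eq_one h1
  have q_rel : ∀ q : List ℕ, (∀ c ∈ q, c < 10) → fixBase (cmw wS (wS ++ (q ++ wS.reverse)) ++ q.reverse) = true →
      Wx xx wS * (Wx xx wS * Wx xx q * (Wx xx wS)⁻¹) * (Wx xx wS)⁻¹ * (Wx xx wS * Wx xx q * (Wx xx wS)⁻¹)⁻¹ = Wx xx q := by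
    intro q hq h
    have lq : ∀ c ∈ wS ++ (q ++ wS.reverse), c < 10 := app_lt lS (app_lt hq (rv lS))
    have h1 := one _ (app_lt (cmw_lt lS lq) (rv hq)) h
    rw [Wx_append, Wx_cmw lS lq, hrev q hq, Wx_append, Wx_append, hrev wS lS] at h1
    have h2 := eq_of_mul_inv_eq_one h1
    rw [← mul_assoc (Wx xx wS) (Wx xx q) (Wx xx wS)⁻¹] at h2
    exact h2
  have R1 := comm_rel wY wW lY lW rel_w
  have R2 : Wx xx wV * (Wx xx wW * (Wx xx wW * Wx xx wV * (Wx xx wW)⁻¹) * (Wx xx wW)⁻¹ *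
      (Wx xx wW * Wx xx wV * (Wx xx wW)⁻¹)⁻¹) = 1 := by
    have h1 := one _ (app_lt lV (cmw_lt lW lV2)) rel_v
    rw [Wx_append, Wx_cmw lW lV2, eV2] at h1
    exact h1
  have R3 : Wx xx wV * (Wx xx wW * Wx xx wV * (Wx xx wW)⁻¹) * (Wx xx wV)⁻¹ * (Wx xx wW * Wx xx wV * (Wx xx wW)⁻¹)⁻¹ =
      Wx xx [2, 4, 7] := by
    have h1 := one _ (app_lt (cmw_lt lV lV2) (rv lU)) rel_u
    rw [Wx_append, Wx_cmw lV lV2, eV2, hrev [2, 4, 7] lU] at h1
    exact eq_of_mul_inv_eq_one h1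
  have R4 := comm_rel [2, 4, 7] wP1 lU lP1 rel_p1
  have R5 := comm_rel [2, 4, 7] wP2 lU lP2 rel_p2
  have R6 := q_rel wQ1 lQ1 rel_q1
  have R7 := q_rel wQ2 lQ2 rel_q2
  have R8 : Wx xx wQ1 * Wx xx wQ2 * (Wx xx wQ1)⁻¹ * (Wx xx wQ2)⁻¹ = Wx xx [2, 4, 7, 9] := by
    have h1 := one _ (app_lt (cmw_lt lQ1 lQ2) (rv lT)) rel_t
    rw [Wx_append, Wx_cmw lQ1 lQ2, hrev [2, 4, 7, 9] lT] at h1
    exact eq_of_mul_inv_eq_one h1
  have R9 := comm_rel [2, 4, 7, 9] wE1 lT lE1 rel_e1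
  have R10 := comm_rel [2, 4, 7, 9] wE2 lT lE2 rel_e2
  rw [eS] at R6 R7
  have key := chain9 (Γ := HH φ) (y := ⟨_, mY⟩) (w := ⟨_, mW⟩) (v := ⟨_, mV⟩) (p1 := ⟨_, mP1⟩) (p2 := ⟨_, mP2⟩)
    (q1 := ⟨_, mQ1⟩) (q2 := ⟨_, mQ2⟩) (e1 := ⟨_, mE1⟩) (e2 := ⟨_, mE2⟩) (u := ⟨_, mU⟩) (t := ⟨_, mT⟩)
    (Subtype.ext R1) (Subtype.ext R2) (Subtype.ext R3) (Subtype.ext R4) (Subtype.ext R5)
    (by rintro s rfl; exact Subtype.ext R6) (by rintro s rfl; exact Subtype.ext R7) (Subtype.ext R8) (Subtype.ext R9)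
    (Subtype.ext R10)
  refine ⟨_, key, ?_⟩
  intro h
  have h1 : Wx xx (cmw wE1 wE2) = 1 := by
    rw [Wx_cmw lE1 lE2]
    exact congrArg Subtype.val h
  have h2 : φ (Wx xx (cmw wE1 wE2)) 2 = 3230 := by
    rw [C.φ_word]
    exact wfn_T (cmw_lt lE1 lE2) (by norm_num) rel_z
  rw [h1, map_one] at h2
  exact absurd h2 (by decide)

/-! ### maximality -/

theorem move (a b : ℕ) (ha : a < 31671) (hb : b < 31671) : ∃ g, φ g a = b := by
  obtain ⟨x, hx⟩ := C.htr a ha
  obtain ⟨y, hy⟩ := C.htr b hb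
  refine ⟨y * x⁻¹, ?_⟩
  rw [map_mul, Equiv.Perm.mul_apply, ← hx, map_inv]
  rw [show (φ x)⁻¹ (φ x (pt 0)) = pt 0 from (φ x).symm_apply_apply _]
  exact hy

theorem coatom [Finite GF] (hcard : Nat.card GF = 4089470473293004800) : IsCoatom (HH φ) := by
  constructor
  · intro h
    obtain ⟨g, hg⟩ := move C 7999 2 (by norm_num) (by norm_num)
    have h1 : g ∈ HH φ := by rw [h]; exact Subgroup.mem_top g
    have h2 := (h1 7999).mp fb7999
    rw [hg, fb2] at h2
    exact absurd h2 (by decide)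
  · intro K hK
    obtain ⟨hle, hnot⟩ := SetLike.lt_iff_le_and_exists.mp hK
    obtain ⟨k, hkK, hkH⟩ := hnot
    have hFR : ∀ i, FM.testBit i = true → i ∈ orb φ K 7999 := by
      intro i hi
      obtain ⟨g, hg, h⟩ := orb1 C hi
      exact ⟨g, hle hg, h⟩
    have hstep : ∀ g ∈ K, ∀ i ∈ orb φ K 7999, φ g i ∈ orb φ K 7999 := by
      rintro g hg _ ⟨x, hx, rfl⟩
      exact ⟨g * x, K.mul_mem hg hx, by rw [map_mul]; rfl⟩
    have hlt : ∀ i ∈ orb φ K 7999, i < 31671 := by
      rintro _ ⟨x, hx, rfl⟩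
      exact C.hlt x _ (by norm_num)
    obtain ⟨j, hj, hjF⟩ : ∃ j ∈ orb φ K 7999, ¬ FM.testBit j = true := by
      by_contra hall
      push Not at hall
      apply hkH
      intro i
      constructor
      · intro hi
        exact hall _ (hstep k hkK i (hFR i hi))
      · intro hi
        have h1 := hstep k⁻¹ (K.inv_mem hkK) _ (hFR _ hi)
        rw [← Equiv.Perm.mul_apply, ← map_mul, inv_mul_cancel, map_one] at h1
        exact hall i h1
    have hcov : ∀ i, i < 31671 → FM.testBit i = true ∨ OM2.testBit i = true ∨ OM3.testBit i = true := by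
      intro i hi
      have h1 : ((FM ||| OM2) ||| OM3).testBit i = true := by
        have h2 : (FM ||| OM2) ||| OM3 = 2 ^ 31671 - 1 := O_cover
        rw [h2, Nat.testBit_two_pow_sub_one]
        simpa using hi
      rw [Nat.testBit_or, Nat.testBit_or, Bool.or_eq_true, Bool.or_eq_true] at h1
      tauto
    have h2R : (∃ i ∈ orb φ K 7999, OM2.testBit i = true) → ∀ i, OM2.testBit i = true → i ∈ orb φ K 7999 := by
      rintro ⟨i, hi, hi2⟩ m hm
      obtain ⟨a, ha, ha'⟩ := orb2 C hi2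
      obtain ⟨b, hb, hb'⟩ := orb2 C hm
      have h1 := hstep (b * a⁻¹) (K.mul_mem (hle hb) (K.inv_mem (hle ha))) i hi
      rw [map_mul, Equiv.Perm.mul_apply, ← ha', map_inv,
        show (φ a)⁻¹ (φ a 2) = 2 from (φ a).symm_apply_apply _, hb'] at h1
      exact h1
    have h3R : (∃ i ∈ orb φ K 7999, OM3.testBit i = true) → ∀ i, OM3.testBit i = true → i ∈ orb φ K 7999 := by
      rintro ⟨i, hi, hi2⟩ m hm
      obtain ⟨a, ha, ha'⟩ := orb3 C hi2
      obtain ⟨b, hb, hb'⟩ := orb3 C hm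
      have h1 := hstep (b * a⁻¹) (K.mul_mem (hle hb) (K.inv_mem (hle ha))) i hi
      rw [map_mul, Equiv.Perm.mul_apply, ← ha', map_inv,
        show (φ a)⁻¹ (φ a 11) = 11 from (φ a).symm_apply_apply _, hb'] at h1
      exact h1
    have hdvd : (orb φ K 7999).ncard ∣ 4089470473293004800 := by
      rw [← relIndex_stab, ← hcard]
      exact ((Subgroup.index_dvd_card _).trans (dvd_refl _)).trans (Subgroup.card_subgroup_dvd_card K)
    have hall : ∀ i, i < 31671 → i ∈ orb φ K 7999 := by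
      by_cases a2 : ∃ i ∈ orb φ K 7999, OM2.testBit i = true
      · by_cases a3 : ∃ i ∈ orb φ K 7999, OM3.testBit i = true
        · intro i hi
          rcases hcov i hi with h | h | h
          · exact hFR i h
          · exact h2R a2 i h
          · exact h3R a3 i h
        · exfalso
          have h1 : orb φ K 7999 = {i | (Nat.lor FM OM2).testBit i = true} := by
            ext i
            have e : (Nat.lor FM OM2).testBit i = (FM.testBit i || OM2.testBit i) := Nat.testBit_or FM OM2 i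
            constructor
            · intro hi
              show (Nat.lor FM OM2).testBit i = true
              rw [e, Bool.or_eq_true]
              rcases hcov i (hlt i hi) with h | h | h
              · exact Or.inl h
              · exact Or.inr h
              · exact absurd ⟨i, hi, h⟩ a3
            · intro hi
              have hi' : (Nat.lor FM OM2).testBit i = true := hi
              rw [e, Bool.or_eq_true] at hi'
              rcases hi' with h | h
              · exact hFR i h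
              · exact h2R a2 i h
          rw [h1, ncard_bits m12_lt, m12_pop] at hdvd
          exact absurd hdvd (by norm_num)
      · by_cases a3 : ∃ i ∈ orb φ K 7999, OM3.testBit i = true
        · exfalso
          have h1 : orb φ K 7999 = {i | (Nat.lor FM OM3).testBit i = true} := by
            ext i
            have e : (Nat.lor FM OM3).testBit i = (FM.testBit i || OM3.testBit i) := Nat.testBit_or FM OM3 i
            constructor
            · intro hi
              show (Nat.lor FM OM3).testBit i = true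
              rw [e, Bool.or_eq_true]
              rcases hcov i (hlt i hi) with h | h | h
              · exact Or.inl h
              · exact absurd ⟨i, hi, h⟩ a2
              · exact Or.inr h
            · intro hi
              have hi' : (Nat.lor FM OM3).testBit i = true := hi
              rw [e, Bool.or_eq_true] at hi'
              rcases hi' with h | h
              · exact hFR i h
              · exact h3R a3 i h
          rw [h1, ncard_bits m13_lt, m13_pop] at hdvd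
          exact absurd hdvd (by norm_num)
        · exfalso
          rcases hcov j (hlt j hj) with h | h | h
          · exact hjF h
          · exact a2 ⟨j, hj, h⟩
          · exact a3 ⟨j, hj, h⟩
    rw [eq_top_iff, ← closure_xx, Subgroup.closure_le]
    rintro _ ⟨c, hc, rfl⟩
    obtain ⟨g, hg, h⟩ := hall (pt c) (C.hpt c hc)
    show xx c ∈ K
    have h1 := C.T_map (l := 7999) (by norm_num) g
    rw [h, C.T_pt hc] at h1
    rw [h1]
    exact K.mul_mem (K.mul_mem hg (hle (T_HH C fb7999))) (K.inv_mem hg)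

end ctx

/-- the context with the base -/
theorem ctx_base : ∃ φ : GF →* Equiv.Perm ℕ, ∃ _ : Ctx xx φ nets 15 31671 10 pt rc,
    ∀ g, (∀ b ∈ [2, 1640, 224, 1, 0], φ g b = b) → g = 1 := by
  obtain ⟨φ, H, C, -⟩ := exists_ctx
  obtain ⟨-, -, φ', hφ', -, hb⟩ := Cfsg.Agent.Lib.Fi23Ord.main
  have e : φ = φ' := by
    apply MonoidHom.eq_of_eqOn_dense closure_xx
    rintro _ ⟨c, hc, rfl⟩
    rw [C.hφ]
    exact (hφ' c).symm
  refine ⟨φ, C, ?_⟩
  rw [e]; exact hb

end Cfsg.Agent.Lib.Fi23M3
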