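import Cfsg.Agent.Lib.Fi24Real
import Cfsg.Prelude.Def_Sporadic

/-!
# `Fi₂₃` inside the commutator subgroup of the presented `Fi₂₄`
-/

set_option autoImplicit false
set_option linter.all false
set_option maxRecDepth 100000

namespace Cfsg.Agent.Lib.Fi24Fi23
open Cfsg.Spor Cfsg.Agent.Lib.CosetInst Cfsg.Agent.Lib.CoxBridge
open Cfsg.Agent.Lib.Fi24Rel Cfsg.Agent.Lib.Fi24W Cfsg.Agent.Lib.Fi24Sub Cfsg.Agent.Lib.Fi24Ord Cfsg.Agent.Lib.Fi24Real

theorem l_notin : xx 11 ∉ commutator G := by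
  intro h
  have h1 : Subgroup.closure (conjugatesOf (xx 11)) ≤ commutator G := by
    rw [Subgroup.closure_le]
    intro d hd
    obtain ⟨g, rfl⟩ := ThreeReal2.mem_conj.mp hd
    exact (inferInstance : (commutator G).Normal).conj_mem _ h g
  rw [cl_top, top_le_iff] at h1
  have h2 := comm_index
  rw [h1, Subgroup.index_top] at h2
  exact absurd h2 (by norm_num)

/-- the copy of `Fi₂₃` -/
noncomputable def K : Subgroup G := H ⊓ commutator G

theorem mem_or (g : G) : g ∈ commutator G ∨ g * xx 11 ∈ commutator G := by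
  by_cases h : g ∈ commutator G
  · exact Or.inl h
  · right
    rw [Subgroup.mul_mem_iff_of_index_two comm_index]
    exact ⟨fun h' => absurd h' h, fun h' => absurd h' l_notin⟩

theorem exists_equiv : Nonempty (F ≃* K) := by
  obtain ⟨φ, f, hφ, _⟩ := Fi24WIdx.main H rfl
  obtain ⟨ψ, _, hb⟩ := quot_equiv hφ
  have hKH : K ≤ H := inf_le_left
  let θ : K →* H ⧸ Z := (QuotientGroup.mk' Z).comp (Subgroup.inclusion hKH)
  have hθ : Function.Bijective θ := by
    constructor
    · rw [← MonoidHom.ker_eq_bot_iff, eq_bot_iff]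
      intro k hk
      have h1 : (Subgroup.inclusion hKH k) ∈ Z := by
        rw [← QuotientGroup.eq_one_iff]; exact hk
      rw [Subgroup.mem_bot]
      rcases mem_Z.mp h1 with h2 | h2
      · exact Subtype.ext h2
      · exfalso
        change (k : G) = xx 11 at h2
        apply l_notin
        rw [← h2]
        exact k.2.2
    · intro q
      obtain ⟨h, rfl⟩ := QuotientGroup.mk'_surjective Z q
      rcases mem_or (h : G) with hm | hm
      · exact ⟨⟨(h : G), h.2, hm⟩, rfl⟩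
      · refine ⟨⟨(h : G) * xx 11, H.mul_mem h.2 (mem_H (Or.inr rfl)), hm⟩, ?_⟩
        change ((⟨(h : G) * xx 11, _⟩ : H) : H ⧸ Z) = ((h : H) : H ⧸ Z)
        rw [QuotientGroup.eq]
        rw [mem_Z]
        right
        change ((h : G) * xx 11)⁻¹ * (h : G) = xx 11
        rw [mul_inv_rev, inv_mul_cancel_right, inv_eq_of_mul_eq_one_left (xinv 11 (by norm_num))]
  exact ⟨(MulEquiv.ofBijective ψ hb).trans (MulEquiv.ofBijective θ hθ).symm⟩

theorem isFi23_of_equiv {A B : Type*} [Group A] [Group B] (e : A ≃* B) (h : Cfsg.IsFi23 A) : Cfsg.IsFi23 B := by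
  have := h.1
  exact ⟨(MulEquiv.isSimpleGroup e.symm), by rw [← h.2]; exact Nat.card_congr e.symm.toEquiv⟩

theorem isFi23 : Cfsg.IsFi23 K := by
  obtain ⟨e⟩ := exists_equiv
  exact isFi23_of_equiv e ⟨Fi23Ord.main.1, Fi23Ord.main.2.1⟩

/-- inside the commutator subgroup -/
theorem in_comm : ∃ L : Subgroup (commutator G), Cfsg.IsFi23 L :=
  ⟨K.subgroupOf (commutator G), isFi23_of_equiv (Subgroup.subgroupOfEquivOfLe (inf_le_right : K ≤ commutator G)).symm isFi23⟩

/-- inside the centraliser of a transposition -/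
theorem in_cent : ∀ d ∈ conjugatesOf (xx 11), ∃ L : Subgroup G, L ≤ Subgroup.centralizer ({d} : Set G) ∧ Cfsg.IsFi23 L := by
  intro d hd
  obtain ⟨g, rfl⟩ := ThreeReal2.mem_conj.mp hd
  refine ⟨K.map (MulAut.conj g).toMonoidHom, ?_, isFi23_of_equiv (K.equivMapOfInjective (MulAut.conj g).toMonoidHom (MulAut.conj g).injective) isFi23⟩
  rintro _ ⟨k, hk, rfl⟩
  rw [Subgroup.mem_centralizer_singleton_iff]
  have h1 := comm_H k hk.1
  change g * k * g⁻¹ * (g * xx 11 * g⁻¹) = g * xx 11 * g⁻¹ * (g * k * g⁻¹)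
  calc g * k * g⁻¹ * (g * xx 11 * g⁻¹) = g * (k * xx 11) * g⁻¹ := by group
    _ = g * xx 11 * g⁻¹ * (g * k * g⁻¹) := by rw [h1]; group

/-- centralisers have the right order -/
theorem card_cent : ∀ d ∈ conjugatesOf (xx 11), Nat.card (Subgroup.centralizer ({d} : Set G)) = 2 * 4089470473293004800 := by
  obtain ⟨φ, f, hφ, _⟩ := Fi24WIdx.main H rfl
  intro d hd
  obtain ⟨e⟩ := Fi24Real.main.2.2.2 d hd
  rw [Nat.card_congr e.toEquiv, card_H hφ]

end Cfsg.Agent.Lib.Fi24Fi23
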