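import Cfsg.Agent.Lib.H32PRat1
import Cfsg.Agent.Lib.MaximalClass

set_option autoImplicit false
set_option linter.all false

/-!
# Fields generated by character values at a `2`-element (helper82)
-/

namespace Cfsg.Agent.Lib.FieldGal82

open Cfsg Cfsg.Agent.Lib.CharBasic

/-- an algebraic number fixed by all endomorphisms of `ℂ` which fix `S` lies in `ℚ(S)` -/
theorem mem_adjoin_set {z : ℂ} {S : Set ℂ} (hz : IsIntegral ℚ z)
    (h : ∀ σ : ℂ →+* ℂ, (∀ s ∈ S, σ s = s) → σ z = z) : z ∈ IntermediateField.adjoin ℚ S := by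
  let F := IntermediateField.adjoin ℚ S
  have hz' : IsIntegral F z := hz.tower_top
  let K := IntermediateField.adjoin F ((minpoly F z).rootSet ℂ)
  have hsplit : Polynomial.IsSplittingField F K (minpoly F z) :=
    IntermediateField.adjoin_rootSet_isSplittingField (IsAlgClosed.splits _)
  have hsep : (minpoly F z).Separable := (minpoly.irreducible hz').separable
  have hgal : IsGalois F K := IsGalois.of_separable_splitting_field hsep
  have hfd : FiniteDimensional F K := Polynomial.IsSplittingField.finiteDimensional K (minpoly F z)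
  have hmem : z ∈ K := IntermediateField.subset_adjoin F _ (by
    rw [Polynomial.mem_rootSet]
    exact ⟨minpoly.ne_zero hz', minpoly.aeval F z⟩)
  have hfix : ∀ f : K ≃ₐ[F] K, f ⟨z, hmem⟩ = ⟨z, hmem⟩ := by
    intro f
    obtain ⟨σ, hσ⟩ := CharGalois.exists_extension_of_endo (F := K) (f : K →+* K)
    have h1 := hσ ⟨z, hmem⟩
    have h2 : σ z = (f ⟨z, hmem⟩ : ℂ) := h1
    have h3 : ∀ s ∈ S, σ s = s := by
      intro s hs
      have hsF : s ∈ F := IntermediateField.subset_adjoin ℚ _ hs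
      have h4 := hσ (algebraMap F K ⟨s, hsF⟩)
      have h5 : (f : K →+* K) (algebraMap F K ⟨s, hsF⟩) = algebraMap F K ⟨s, hsF⟩ := f.commutes _
      rw [h5] at h4
      exact h4
    apply Subtype.ext
    rw [← h2]
    exact h σ h3
  obtain ⟨q, hq⟩ := (IsGalois.mem_range_algebraMap_iff_fixed (⟨z, hmem⟩ : K)).mpr hfix
  have h1 : ((algebraMap F K q : K) : ℂ) = z := congrArg (Subtype.val) hq
  rw [← h1]
  exact q.2

theorem fixes_adjoin_set (σ : ℂ →+* ℂ) {S : Set ℂ} (hS : ∀ s ∈ S, σ s = s) {z : ℂ}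
    (hz : z ∈ IntermediateField.adjoin ℚ S) : σ z = z := by
  induction hz using IntermediateField.adjoin_induction with
  | mem x hx => exact hS x hx
  | algebraMap x => simp
  | add x y _ _ hx hy => rw [map_add, hx, hy]
  | inv x _ hx => rw [map_inv₀, hx]
  | mul x y _ _ hx hy => rw [map_mul, hx, hy]

theorem pow_eq_iff {ζ : ℂ} {N : ℕ} (hN : N ≠ 0) (hζ : IsPrimitiveRoot ζ N) (a b : ℕ) : ζ ^ a = ζ ^ b ↔ a ≡ b [MOD N] := by
  have h0 : ζ ≠ 0 := hζ.ne_zero hN
  have key : ∀ a b : ℕ, a ≤ b → (ζ ^ a = ζ ^ b ↔ a ≡ b [MOD N]) := by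
    intro a b hab
    rw [Nat.modEq_iff_dvd' hab, ← hζ.pow_eq_one_iff_dvd]
    constructor
    · intro h
      have h1 : ζ ^ a * ζ ^ (b - a) = ζ ^ a * 1 := by rw [← pow_add, Nat.add_sub_cancel' hab, mul_one, h]
      exact mul_left_cancel₀ (pow_ne_zero a h0) h1
    · intro h
      have h1 : ζ ^ a * ζ ^ (b - a) = ζ ^ b := by rw [← pow_add, Nat.add_sub_cancel' hab]
      rw [← h1, h, mul_one]
  rcases le_total a b with h | h
  · exact key a b h
  · rw [eq_comm, key b a h]
    exact ⟨fun h => h.symm, fun h => h.symm⟩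

/-- the set of values at `g` of the irreducible characters -/
def vals (G : Type*) [Group G] (g : G) : Set ℂ := {z : ℂ | ∃ χ : IrrCharacter G, (χ : G → ℂ) g = z}

theorem galois_action {G : Type*} [Group G] [Finite G] {g : G} {N : ℕ} (hN : N ≠ 0) (hg : orderOf g ∣ N) {ζ : ℂ}
    (hζ : IsPrimitiveRoot ζ N) (σ : ℂ →+* ℂ) : ∃ j : ℕ, j.Coprime N ∧ σ ζ = ζ ^ j ∧
      ∀ χ : IrrCharacter G, σ ((χ : G → ℂ) g) = (χ : G → ℂ) (g ^ j) := by
  haveI : NeZero N := ⟨hN⟩
  obtain ⟨j, -, hj, hj2⟩ := hζ.isPrimitiveRoot_iff.1 (hζ.map_of_injective σ.injective)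
  refine ⟨j, hj, hj2.symm, fun χ => ?_⟩
  apply CharGalois.map_apply_eq χ.2.isCharacter
  intro μ hμ
  have h1 : μ ^ N = 1 := by
    obtain ⟨c, hc⟩ := hg
    rw [hc, pow_mul, hμ, one_pow]
  have : NeZero N := ⟨hN⟩
  obtain ⟨i, -, rfl⟩ := hζ.eq_pow_of_pow_eq_one h1
  rw [map_pow, ← hj2, ← pow_mul, ← pow_mul, mul_comm]

theorem isIntegral_val {G : Type*} [Group G] [Finite G] (χ : IrrCharacter G) (g : G) : IsIntegral ℚ ((χ : G → ℂ) g) := by
  obtain ⟨n, ρ, -, hρ⟩ := χ.2
  rw [← congrFun hρ g]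
  exact (CharValues.isIntegral_character ρ g).tower_top

/-- the field generated by the values at `g` if `g` is conjugate exactly to `g` and `g^e` among its powers -/
theorem field_eq {G : Type*} [Group G] [Finite G] {g : G} {N : ℕ} (hN : N ≠ 0) (hN2 : Even N) (hg : orderOf g = N) {ζ : ℂ}
    (hζ : IsPrimitiveRoot ζ N) {e : ℕ} (he : Odd e) (hE : N ∣ 2 * (1 + e)) (hc : IsConj g (g ^ e))
    (hcon : ∀ j : ℕ, IsConj g (g ^ j) → g ^ j = g ∨ g ^ j = g ^ e) :
    IntermediateField.adjoin ℚ (vals G g) = IntermediateField.adjoin ℚ ({ζ + ζ ^ e} : Set ℂ) := by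
  have hζ2 : ζ ^ (2 * (1 + e)) = 1 := (hζ.pow_eq_one_iff_dvd _).2 hE
  have hodd : ∀ j : ℕ, Odd j → ζ ^ ((1 + e) * j) = ζ ^ (1 + e) := by
    rintro _ ⟨i, rfl⟩
    have : (1 + e) * (2 * i + 1) = 2 * (1 + e) * i + (1 + e) := by ring
    rw [this, pow_add, pow_mul, hζ2, one_pow, one_mul]
  have hζ0 : ζ ≠ 0 := hζ.ne_zero hN
  have hee : ζ ^ (e * e) = ζ := by
    have h1 := hodd e he
    have h2 : (1 + e) * e = e + e * e := by ring
    rw [h2, pow_add, add_comm 1 e, pow_add, pow_one] at h1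
    exact mul_left_cancel₀ (pow_ne_zero e hζ0) h1
  have hg2 : ∀ a b : ℕ, ζ ^ a = ζ ^ b ↔ g ^ a = g ^ b := by
    intro a b
    rw [pow_eq_iff hN hζ, pow_eq_pow_iff_modEq, hg]
  have hjodd : ∀ j : ℕ, j.Coprime N → Odd j := by
    intro j hj
    rw [← Nat.not_even_iff_odd]
    intro h
    have := Nat.dvd_gcd h.two_dvd hN2.two_dvd
    rw [hj] at this
    norm_num at this
  apply le_antisymm
  · rw [IntermediateField.adjoin_le_iff]
    rintro _ ⟨χ, rfl⟩
    apply mem_adjoin_set (isIntegral_val χ g)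
    intro σ hσ
    have hw := hσ _ rfl
    obtain ⟨j, hj, hj1, hj2⟩ := galois_action hN hg.dvd hζ σ
    rw [hj2 χ]
    rw [map_add, map_pow, hj1] at hw
    have h1 : ζ ^ j * (ζ ^ j) ^ e = ζ * ζ ^ e := by
      have := hodd j (hjodd j hj)
      calc ζ ^ j * (ζ ^ j) ^ e = ζ ^ ((1 + e) * j) := by ring
        _ = ζ ^ (1 + e) := this
        _ = ζ * ζ ^ e := by ring
    have h2 : (ζ ^ j - ζ) * (ζ ^ j - ζ ^ e) = 0 := by
      linear_combination (-(ζ ^ j)) * hw.symm + (-1 : ℂ) * h1
    have h3 : g ^ j = g ∨ g ^ j = g ^ e := by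
      rcases mul_eq_zero.1 h2 with h | h
      · left
        have := (hg2 j 1).1 (by rw [pow_one]; exact sub_eq_zero.1 h)
        rwa [pow_one] at this
      · right
        exact (hg2 j e).1 (sub_eq_zero.1 h)
    rcases h3 with h | h
    · rw [h]
    · rw [h]
      exact ((isConj_iff_forall_irr g (g ^ e)).1 hc χ).symm
  · rw [IntermediateField.adjoin_le_iff]
    intro w hw
    rw [Set.mem_singleton_iff] at hw
    subst hw
    apply mem_adjoin_set
    · have h1 : IsIntegral ℚ ζ := (hζ.isIntegral (Nat.pos_of_ne_zero hN)).tower_top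
      exact h1.add (h1.pow e)
    · intro σ hσ
      obtain ⟨j, hj, hj1, hj2⟩ := galois_action hN hg.dvd hζ σ
      have h1 : IsConj g (g ^ j) := by
        rw [isConj_iff_forall_irr]
        intro χ
        rw [← hj2 χ]
        exact (hσ _ ⟨χ, rfl⟩).symm
      rw [map_add, map_pow, hj1]
      rcases hcon j h1 with h | h
      · have h2 : ζ ^ j = ζ := by
          have := (hg2 j 1).2 (by rw [h, pow_one])
          rwa [pow_one] at this
        rw [h2]
      · have h2 : ζ ^ j = ζ ^ e := (hg2 j e).2 h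
        rw [h2, ← pow_mul, hee, add_comm]

/-- normalizer and centralizer of a cyclic `2`-subgroup which is normal in a Sylow subgroup -/
theorem normalizer_cyclic {G : Type*} [Group G] [Finite G] (P : Sylow 2 G) (C : Subgroup G) [IsCyclic C] {m : ℕ}
    (hC : Nat.card C = 2 ^ m) (hP : (P : Subgroup G) ≤ Subgroup.normalizer (C : Set G)) :
    (∃ i : ℕ, (Subgroup.centralizer (C : Set G)).relIndex (Subgroup.normalizer (C : Set G)) = 2 ^ i) ∧
      ∀ t ∈ Subgroup.normalizer (C : Set G), ∃ u ∈ (P : Subgroup G), ∃ v ∈ Subgroup.centralizer (C : Set G), t = u * v := by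
  obtain ⟨A, hA⟩ : ∃ A : Subgroup G, A = Subgroup.normalizer (C : Set G) := ⟨_, rfl⟩
  have hker := Subgroup.normalizerMonoidHom_ker C
  have h1 : ∃ i : ℕ, C.normalizerMonoidHom.ker.index = 2 ^ i := by
    have h2 : C.normalizerMonoidHom.ker.index ∣ Nat.card (MulAut C) := by
      rw [Subgroup.index_ker]
      exact Subgroup.card_subgroup_dvd_card _
    rw [IsCyclic.card_mulAut, hC] at h2
    have h3 : Nat.totient (2 ^ m) ∣ 2 ^ m := by
      rcases Nat.eq_zero_or_pos m with h | h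
      · rw [h]; simp
      · rw [Nat.totient_prime_pow Nat.prime_two h]
        norm_num
        exact pow_dvd_pow 2 (Nat.sub_le m 1)
    obtain ⟨i, -, hi⟩ := (Nat.dvd_prime_pow Nat.prime_two).1 (h2.trans h3)
    exact ⟨i, hi⟩
  refine ⟨?_, ?_⟩
  · rw [hker] at h1
    exact h1
  · intro t ht
    have h2 : (P : Subgroup G).subgroupOf (Subgroup.normalizer (C : Set G)) ⊔ C.normalizerMonoidHom.ker = ⊤ := by
      rw [← Subgroup.index_eq_one]
      obtain ⟨i, hi⟩ := h1
      have h3 : ((P : Subgroup G).subgroupOf (Subgroup.normalizer (C : Set G)) ⊔ C.normalizerMonoidHom.ker).index ∣ 2 ^ i := by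
        rw [← hi]
        exact Subgroup.index_dvd_of_le le_sup_right
      have h4 : ((P : Subgroup G).subgroupOf (Subgroup.normalizer (C : Set G)) ⊔ C.normalizerMonoidHom.ker).index ∣ (P : Subgroup G).index := by
        refine (Subgroup.index_dvd_of_le le_sup_left).trans ?_
        exact Subgroup.relIndex_dvd_index_of_le hP
      have h5 : Nat.Coprime (2 ^ i) (P : Subgroup G).index := by
        apply Nat.Coprime.pow_left
        rw [Nat.Prime.coprime_iff_not_dvd Nat.prime_two]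
        exact P.not_dvd_index
      exact Nat.eq_one_of_dvd_coprimes h5 h3 h4
    have h3 : (⟨t, ht⟩ : Subgroup.normalizer (C : Set G)) ∈ (P : Subgroup G).subgroupOf (Subgroup.normalizer (C : Set G)) ⊔ C.normalizerMonoidHom.ker := by
      rw [h2]; exact Subgroup.mem_top _
    obtain ⟨u, hu, v, hv, huv⟩ := Subgroup.mem_sup_of_normal_right.1 h3
    refine ⟨u, hu, v, ?_, (congrArg Subtype.val huv).symm⟩
    rw [hker] at hv
    exact hv

end Cfsg.Agent.Lib.FieldGal82
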