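import Mathlib
import Cfsg.Agent.Lib.FieldStruct67

/-!
(helper67) An irreducible operator of prime order `r` on a space of dimension `e` over a field with `q` elements:
`r ∣ q ^ k - 1` only if `e ∣ k`.
-/

set_option autoImplicit false

namespace Cfsg.Agent.Lib.FieldStruct67

open Module

universe u v w

theorem hord_of_irred {F : Type u} {W : Type v} [Field F] [Finite F] [AddCommGroup W] [Module F W] [FiniteDimensional F W]
    [Nontrivial W] {r : ℕ} [hr : Fact r.Prime] (T : End F W) (hT : T ^ r = 1)
    (hirr : ∀ U : Submodule F W, (∀ x ∈ U, T x ∈ U) → U ≠ ⊥ → U = ⊤) :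
    ∀ k, r ∣ Nat.card F ^ k - 1 → finrank F W ∣ k := by
  classical
  have hFf := Fintype.ofFinite F
  have hWfin : Finite W := Module.finite_of_finite F
  have hEfin : Finite (End F W) := Module.finite_of_finite F
  let K : Subalgebra F (End F W) := Algebra.adjoin F {T}
  have hTK : T ∈ K := Algebra.self_mem_adjoin_singleton F T
  have hcommT : ∀ k ∈ K, k * T = T * k := by
    intro k hk
    have h1 : K ≤ Subalgebra.centralizer F {T} := by
      apply Algebra.adjoin_le
      intro x hx
      rw [Set.mem_singleton_iff] at hx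
      subst hx
      rw [SetLike.mem_coe, Subalgebra.mem_centralizer_iff]
      intro g hg
      rw [Set.mem_singleton_iff] at hg
      rw [hg]
    exact ((Subalgebra.mem_centralizer_iff F).1 (h1 hk) T rfl).symm
  have hinj : ∀ k ∈ K, k ≠ 0 → ∀ v, k v = 0 → v = 0 := by
    intro k hk hk0 v hv
    by_contra hv0
    apply hk0
    have hinv : ∀ x ∈ LinearMap.ker k, T x ∈ LinearMap.ker k := by
      intro x hx
      rw [LinearMap.mem_ker] at hx ⊢
      have h1 := LinearMap.congr_fun (hcommT k hk) x
      rw [Module.End.mul_apply, Module.End.mul_apply, hx, map_zero] at h1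
      exact h1
    exact LinearMap.ker_eq_top.1 (hirr _ hinv (fun h => hv0 (by
      have : v ∈ LinearMap.ker k := hv
      rw [h] at this
      exact (Submodule.mem_bot F).1 this)))
  have hdom : IsDomain K := by
    have hntK : Nontrivial K := inferInstance
    have hnz : NoZeroDivisors K := by
      refine ⟨fun {a b} hab => ?_⟩
      by_contra hcon
      push Not at hcon
      obtain ⟨v, hv⟩ := exists_ne (0 : W)
      apply hv
      apply hinj b b.2 (fun h => hcon.2 (Subtype.ext h))
      apply hinj a a.2 (fun h => hcon.1 (Subtype.ext h))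
      exact congrArg (fun T : K => (T : End F W) v) hab
    exact NoZeroDivisors.to_isDomain K
  have hfield : IsField K := Finite.isDomain_to_isField K
  let _ : Field K := hfield.toField
  let t : K := ⟨T, hTK⟩
  have htr : t ^ r = 1 := Subtype.ext hT
  obtain ⟨w0, hw0⟩ := exists_ne (0 : W)
  have hKW : finrank K W = 1 := by
    rw [finrank_eq_one_iff_of_nonzero' w0 hw0]
    intro x
    let j : K →ₗ[F] W := (LinearMap.toSpanSingleton K W w0).restrictScalars F
    have hj : LinearMap.range j = ⊤ := by
      apply hirr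
      · rintro _ ⟨k, rfl⟩
        exact ⟨t * k, mul_smul t k w0⟩
      · intro h
        apply hw0
        have : w0 ∈ LinearMap.range j := ⟨1, one_smul K w0⟩
        rw [h] at this
        exact (Submodule.mem_bot F).1 this
    have hx : x ∈ LinearMap.range j := by rw [hj]; trivial
    obtain ⟨k, hk⟩ := hx
    exact ⟨k, hk⟩
  have hmul : finrank F K * finrank K W = finrank F W := Module.finrank_mul_finrank F K W
  rw [hKW, mul_one] at hmul
  have hadj : Algebra.adjoin F {t} = ⊤ := by
    rw [eq_top_iff]
    rintro ⟨k, hk⟩ _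
    have h1 : K ≤ (Algebra.adjoin F {t}).map K.val := by
      apply Algebra.adjoin_le
      intro x hx
      rw [Set.mem_singleton_iff] at hx
      subst hx
      exact ⟨t, Algebra.self_mem_adjoin_singleton F t, rfl⟩
    obtain ⟨k', hk', hkk⟩ := h1 hk
    have : k' = ⟨k, hk⟩ := Subtype.ext hkk
    rw [← this]; exact hk'
  intro k hk
  rw [← hmul, ← FiniteField.orderOf_frobeniusAlgEquivOfAlgebraic F K]
  apply orderOf_dvd_of_pow_eq_one
  apply AlgEquiv.ext
  intro x
  have hx : x ∈ Algebra.adjoin F {t} := by rw [hadj]; trivial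
  have hfrob : ∀ x : K, ((FiniteField.frobeniusAlgEquivOfAlgebraic F K) ^ k) x = x ^ (Nat.card F ^ k) := by
    intro x
    have h1 : ⇑((FiniteField.frobeniusAlgEquivOfAlgebraic F K) ^ k) = (⇑(FiniteField.frobeniusAlgEquivOfAlgebraic F K))^[k] :=
      AlgEquiv.coe_pow _ _
    rw [h1, FiniteField.coe_frobeniusAlgEquivOfAlgebraic_iterate, Nat.card_eq_fintype_card]
  have ht1 : t ^ (Nat.card F ^ k) = t := by
    have h1 : 1 ≤ Nat.card F ^ k := Nat.one_le_pow _ _ Nat.card_pos
    obtain ⟨c, hc⟩ := hk
    have h3 : Nat.card F ^ k = r * c + 1 := by omega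
    rw [h3, pow_succ, pow_mul, htr, one_pow, one_mul]
  induction hx using Algebra.adjoin_induction with
  | mem x hx =>
    rw [Set.mem_singleton_iff] at hx
    subst hx
    rw [hfrob, ht1]; rfl
  | algebraMap c => rw [AlgEquiv.commutes]; rfl
  | add x y _ _ hx hy => rw [map_add, hx, hy]; rfl
  | mul x y _ _ hx hy => rw [map_mul, hx, hy]; rfl

end Cfsg.Agent.Lib.FieldStruct67
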