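import Mathlib

/-!
Transvections over extension fields embedded in matrix algebras (helper98).
-/

set_option autoImplicit false

namespace Cfsg.Agent.Lib.FieldSubalg

open Matrix

theorem mat_ext {F : Type*} [Field F] {n : ℕ} {A B : Matrix (Fin n) (Fin n) F}
    (h : ∀ v, A *ᵥ v = B *ᵥ v) : A = B := by
  apply Matrix.toLin'.injective
  apply LinearMap.ext
  intro v
  rw [Matrix.toLin'_apply, Matrix.toLin'_apply, h]

/-- semilinear functional data -/
theorem exists_functional {F : Type*} [Field F] {n : ℕ} (E : Type*) [Field E] [Algebra F E]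
    [FiniteDimensional F E] (ψ : E →ₐ[F] Matrix (Fin n) (Fin n) F)
    (hn : Module.finrank F E < n) :
    ∃ (φ : (Fin n → F) →ₗ[F] E) (u v₀ : Fin n → F),
      (∀ (x : E) (v : Fin n → F), φ (ψ x *ᵥ v) = x * φ v) ∧ φ u = 0 ∧ φ v₀ = 1 ∧ u ≠ 0 := by
  classical
  let ρ : E →ₐ[F] Module.End F (Fin n → F) :=
    ((Matrix.toLinAlgEquiv' : Matrix (Fin n) (Fin n) F ≃ₐ[F] _) : _ →ₐ[F] _).comp ψ
  have hρ : ∀ x v, ρ x v = ψ x *ᵥ v := fun x v => rfl
  let _ : Module E (Fin n → F) := Module.compHom (Fin n → F) ρ.toRingHom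
  have hsmul : ∀ (x : E) (v : Fin n → F), x • v = ψ x *ᵥ v := fun x v => rfl
  have htower : IsScalarTower F E (Fin n → F) := ⟨fun c x v => by
    rw [hsmul, hsmul, map_smul, Matrix.smul_mulVec]⟩
  have hfin : Module.Finite E (Fin n → F) := Module.Finite.of_restrictScalars_finite F E _
  have hdim : Module.finrank F E * Module.finrank E (Fin n → F) = n := by
    rw [Module.finrank_mul_finrank, Module.finrank_fin_fun]
  have hpos : 0 < Module.finrank F E := Module.finrank_pos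
  have h2 : 1 < Module.finrank E (Fin n → F) := by
    by_contra h
    push Not at h
    have : Module.finrank F E * Module.finrank E (Fin n → F) ≤ Module.finrank F E * 1 :=
      Nat.mul_le_mul_left _ h
    omega
  have hnt : Nontrivial (Fin n → F) := Module.nontrivial_of_finrank_pos (R := E) (by omega)
  obtain ⟨u, hu⟩ := exists_ne (0 : Fin n → F)
  have hlt : Submodule.span E {u} < (⊤ : Submodule E (Fin n → F)) := by
    apply lt_top_iff_ne_top.mpr
    intro htop
    have h1 := finrank_span_singleton (K := E) hu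
    rw [htop, finrank_top] at h1
    omega
  obtain ⟨w, -, hw⟩ := SetLike.exists_of_lt hlt
  obtain ⟨f, hfw, hf⟩ := Submodule.exists_le_ker_of_notMem hw
  refine ⟨(((f w)⁻¹ : E) • f).restrictScalars F, u, w, ?_, ?_, ?_, hu⟩
  · intro x v
    change (f w)⁻¹ * f (x • v) = x * ((f w)⁻¹ * f v)
    rw [map_smul, smul_eq_mul]; ring
  · change (f w)⁻¹ * f u = 0
    have : f u = 0 := hf (Submodule.mem_span_singleton_self u)
    rw [this, mul_zero]
  · change (f w)⁻¹ * f w = 1
    exact inv_mul_cancel₀ hfw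

section

variable {F : Type*} [Field F] {n : ℕ} {E : Type*} [Field E] [Algebra F E]
  (ψ : E →ₐ[F] Matrix (Fin n) (Fin n) F) (φ : (Fin n → F) →ₗ[F] E) (u : Fin n → F)

/-- The nilpotent matrix `v ↦ φ(v) u`. -/
noncomputable def nilp : Matrix (Fin n) (Fin n) F :=
  LinearMap.toMatrix'
    { toFun := fun v => ψ (φ v) *ᵥ u
      map_add' := fun v w => by rw [map_add, map_add, Matrix.add_mulVec]
      map_smul' := fun c v => by
        rw [map_smul, map_smul, Matrix.smul_mulVec]; rfl }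

theorem nilp_mulVec (v : Fin n → F) : nilp ψ φ u *ᵥ v = ψ (φ v) *ᵥ u := by
  rw [nilp, LinearMap.toMatrix'_mulVec]
  rfl

variable {ψ φ u}

theorem nilp_mul_self (hφ : ∀ (x : E) (v : Fin n → F), φ (ψ x *ᵥ v) = x * φ v) (hu : φ u = 0) :
    nilp ψ φ u * nilp ψ φ u = 0 := by
  apply mat_ext
  intro v
  rw [← Matrix.mulVec_mulVec, nilp_mulVec, nilp_mulVec, hφ, hu, mul_zero, map_zero,
    Matrix.zero_mulVec, Matrix.zero_mulVec]

theorem nilp_comm (hφ : ∀ (x : E) (v : Fin n → F), φ (ψ x *ᵥ v) = x * φ v) (x : E) :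
    nilp ψ φ u * ψ x = ψ x * nilp ψ φ u := by
  apply mat_ext
  intro v
  rw [← Matrix.mulVec_mulVec, ← Matrix.mulVec_mulVec, nilp_mulVec, nilp_mulVec, hφ, map_mul,
    ← Matrix.mulVec_mulVec]

/-- The transvection `1 + nilp` as a unit. -/
noncomputable def transv (hφ : ∀ (x : E) (v : Fin n → F), φ (ψ x *ᵥ v) = x * φ v)
    (hu : φ u = 0) : GL (Fin n) F where
  val := 1 + nilp ψ φ u
  inv := 1 - nilp ψ φ u
  val_inv := by
    have h := nilp_mul_self hφ hu
    have : (1 + nilp ψ φ u) * (1 - nilp ψ φ u) = 1 - nilp ψ φ u * nilp ψ φ u := by noncomm_ring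
    rw [this, h, sub_zero]
  inv_val := by
    have h := nilp_mul_self hφ hu
    have : (1 - nilp ψ φ u) * (1 + nilp ψ φ u) = 1 - nilp ψ φ u * nilp ψ φ u := by noncomm_ring
    rw [this, h, sub_zero]

theorem det_transv [Finite F] (hφ : ∀ (x : E) (v : Fin n → F), φ (ψ x *ᵥ v) = x * φ v)
    (hu : φ u = 0) : (transv hφ hu : Matrix (Fin n) (Fin n) F).det = 1 := by
  obtain ⟨p, hp⟩ := CharP.exists F
  have hpp : p.Prime := by
    have := Fintype.ofFinite F
    exact CharP.char_is_prime F p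
  have : Fact p.Prime := ⟨hpp⟩
  have hchar : CharP (Matrix (Fin n) (Fin n) F) p ∨ n = 0 := by
    rcases Nat.eq_zero_or_pos n with h | h
    · exact Or.inr h
    · left
      have : Nonempty (Fin n) := ⟨⟨0, h⟩⟩
      infer_instance
  rcases hchar with hchar | hn
  · have h1 : (transv hφ hu : Matrix (Fin n) (Fin n) F) ^ p = 1 := by
      change (1 + nilp ψ φ u) ^ p = 1
      rw [add_pow_char_of_commute p (Commute.one_left _), one_pow]
      have h2 : nilp ψ φ u ^ p = 0 := by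
        obtain ⟨k, hk⟩ := Nat.exists_eq_add_of_le hpp.two_le
        rw [hk, pow_add, pow_two, nilp_mul_self hφ hu, zero_mul]
      rw [h2, add_zero]
    have h3 := congrArg Matrix.det h1
    rw [Matrix.det_pow, Matrix.det_one] at h3
    have h4 : ((transv hφ hu : Matrix (Fin n) (Fin n) F).det - 1) ^ p = 0 := by
      rw [sub_pow_char, h3, one_pow, sub_self]
    exact sub_eq_zero.mp (pow_eq_zero_iff hpp.ne_zero |>.mp h4)
  · subst hn
    exact Matrix.det_isEmpty

/-- If the transvection normalizes a bigger field subalgebra `B` then `B` is contained in the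
range of `ψ`. -/
theorem le_range_of_normalizes [FiniteDimensional F E]
    (hφ : ∀ (x : E) (v : Fin n → F), φ (ψ x *ᵥ v) = x * φ v)
    (hu : φ u = 0) (v₀ : Fin n → F) (hv₀ : φ v₀ = 1) (hu0 : u ≠ 0)
    (hn : 2 * Module.finrank F E < n)
    (B : Subalgebra F (Matrix (Fin n) (Fin n) F)) (hψB : ∀ x, ψ x ∈ B)
    (hinv : ∀ x ∈ B, x ≠ 0 → ∃ y ∈ B, y * x = 1)
    (hnorm : ∀ k ∈ B, (transv hφ hu : Matrix (Fin n) (Fin n) F) * k *
      ((transv hφ hu)⁻¹ : GL (Fin n) F) ∈ B) :
    ∀ k ∈ B, ∃ x : E, ψ x = k := by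
  intro k hk
  set N := nilp ψ φ u with hN
  set t := transv hφ hu with ht
  set k' : Matrix (Fin n) (Fin n) F := (t : Matrix (Fin n) (Fin n) F) * k *
      ((t⁻¹ : GL (Fin n) F) : Matrix (Fin n) (Fin n) F) with hk'
  have hk'B : k' ∈ B := hnorm k hk
  have htv : (t : Matrix (Fin n) (Fin n) F) = 1 + N := rfl
  have hrel : (t : Matrix (Fin n) (Fin n) F) * k = k' * t := by
    rw [hk', mul_assoc, ← Units.val_mul, inv_mul_cancel, Units.val_one, mul_one]
  rw [htv, add_mul, mul_add, one_mul, mul_one] at hrel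
  -- k + N k = k' + k' N
  have hD : k' - k = N * k - k' * N := by
    have h1 : k' - k = (k' + k' * N) - k - k' * N := by abel
    rw [h1, ← hrel]; abel
  -- D vanishes on a nonzero vector
  have hz : k' - k = 0 := by
    by_contra hne
    obtain ⟨y, -, hy⟩ := hinv _ (B.sub_mem hk'B hk) hne
    let g : (Fin n → F) →ₗ[F] E × E := φ.prod (φ.comp (Matrix.mulVecLin k))
    have hlt : Module.finrank F (E × E) < Module.finrank F (Fin n → F) := by
      rw [Module.finrank_prod, Module.finrank_fin_fun]; omega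
    have hker := LinearMap.ker_ne_bot_of_finrank_lt (f := g) hlt
    obtain ⟨v, hv, hv0⟩ := Submodule.exists_mem_ne_zero_of_ne_bot hker
    rw [LinearMap.mem_ker] at hv
    have hv1 : φ v = 0 := congrArg Prod.fst hv
    have hv2 : φ (k *ᵥ v) = 0 := congrArg Prod.snd hv
    have h3 : (k' - k) *ᵥ v = 0 := by
      rw [hD, Matrix.sub_mulVec, ← Matrix.mulVec_mulVec, ← Matrix.mulVec_mulVec, hN, nilp_mulVec,
        nilp_mulVec, hv1, hv2, map_zero, Matrix.zero_mulVec, Matrix.mulVec_zero, sub_zero]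
    apply hv0
    have h4 : (y * (k' - k)) *ᵥ v = 0 := by rw [← Matrix.mulVec_mulVec, h3, Matrix.mulVec_zero]
    rwa [hy, Matrix.one_mulVec] at h4
  -- so N k = k N
  have hcomm : N * k = k * N := by
    rw [hz] at hD
    rw [sub_eq_zero.mp hD.symm, sub_eq_zero.mp hz]
  have h5 : k *ᵥ u = ψ (φ (k *ᵥ v₀)) *ᵥ u := by
    have h6 : N *ᵥ v₀ = u := by rw [hN, nilp_mulVec, hv₀, map_one, Matrix.one_mulVec]
    have h7 : (N * k) *ᵥ v₀ = (k * N) *ᵥ v₀ := by rw [hcomm]
    rw [← Matrix.mulVec_mulVec, ← Matrix.mulVec_mulVec, h6, hN, nilp_mulVec] at h7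
    exact h7.symm
  refine ⟨φ (k *ᵥ v₀), ?_⟩
  by_contra hne
  obtain ⟨y, -, hy⟩ := hinv _ (B.sub_mem (hψB (φ (k *ᵥ v₀))) hk) (sub_ne_zero.mpr hne)
  apply hu0
  have h8 : (ψ (φ (k *ᵥ v₀)) - k) *ᵥ u = 0 := by rw [Matrix.sub_mulVec, ← h5, sub_self]
  have h9 : (y * (ψ (φ (k *ᵥ v₀)) - k)) *ᵥ u = 0 := by
    rw [← Matrix.mulVec_mulVec, h8, Matrix.mulVec_zero]
  rwa [hy, Matrix.one_mulVec] at h9

end

end Cfsg.Agent.Lib.FieldSubalg
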