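import Mathlib
import Cfsg.Agent.Lib.ColTools4
import Cfsg.Agent.Lib.ColTools2
import Cfsg.Agent.Lib.DefectZero

/-!
# Irreducible degrees and isolated sets of primes (helper69)

If `|G| = A * B * C` with pairwise coprime `A, B, C > 1` and every nonprincipal irreducible degree of `G` is divisible
by `A`, `B` or `C`, then no element of `G` has order divisible by primes dividing two different factors.
-/

set_option autoImplicit false

namespace Cfsg.Agent.Lib.FirstCol

open Cfsg Cfsg.Agent.Lib.CharBasic Cfsg.Agent.Lib.ColTools Subgroup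

universe u v

variable {G : Type u} [Group G] [Finite G]

theorem no_common {y : G} (hy : y ≠ 1) {n : ℕ} (hn : 2 ≤ n)
    (h : ∀ χ : IrrCharacter G, χ ≠ triv G → (χ : G → ℂ) y ≠ 0 → n ∣ deg χ) : False := by
  classical
  have h1 := sum_degree_mul y hy
  rw [← Finset.add_sum_erase _ _ (Finset.mem_univ (triv G)), triv_apply, triv_apply, one_mul] at h1
  set z : ℂ := ∑ χ ∈ Finset.univ.erase (triv G), ((deg χ / n : ℕ) : ℂ) * (χ : G → ℂ) y with hz
  have h2 : ∑ χ ∈ Finset.univ.erase (triv G), (χ : G → ℂ) 1 * (χ : G → ℂ) y = n * z := by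
    rw [hz, Finset.mul_sum]
    apply Finset.sum_congr rfl
    intro χ hχ
    rw [apply_one]
    by_cases h0 : (χ : G → ℂ) y = 0
    · rw [h0]; ring
    · obtain ⟨k, hk⟩ := h χ (Finset.ne_of_mem_erase hχ) h0
      rw [hk, Nat.mul_div_cancel_left _ (by omega : 0 < n)]
      push_cast
      ring
  rw [h2] at h1
  have h3 : IsIntegral ℤ (-z) := by
    apply IsIntegral.neg
    rw [hz]
    refine IsIntegral.sum _ fun χ _ => ?_
    refine IsIntegral.mul ?_ (DefectZero.isIntegral_value χ.2.isCharacter y)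
    have h0 := isIntegral_algebraMap (R := ℤ) (A := ℂ) (x := ((deg χ / n : ℕ) : ℤ))
    rw [eq_intCast, Int.cast_natCast] at h0
    exact h0
  have h4 : n ∣ 1 := DefectZero.dvd_of_eq_mul_isIntegral (by omega) h3 (by
    push_cast
    linear_combination h1)
  have := Nat.dvd_one.1 h4
  omega

/-- the numerical data -/
structure Three (G : Type u) [Group G] (A B C : ℕ) : Prop where
  hA : 1 < A
  hB : 1 < B
  hC : 1 < C
  hAB : A.Coprime B
  hAC : A.Coprime C
  hBC : B.Coprime C
  card : Nat.card G = A * B * C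
  degs : ∀ χ : IrrCharacter G, χ ≠ triv G → A ∣ deg χ ∨ B ∣ deg χ ∨ C ∣ deg χ

variable {A B C : ℕ}

omit [Finite G] in
theorem Three.swap (h : Three G A B C) : Three G B A C :=
  ⟨h.hB, h.hA, h.hC, h.hAB.symm, h.hBC, h.hAC, by rw [h.card]; ring, fun χ hχ => by
    rcases h.degs χ hχ with h1 | h1 | h1
    · exact Or.inr (Or.inl h1)
    · exact Or.inl h1
    · exact Or.inr (Or.inr h1)⟩

omit [Finite G] in
theorem Three.rot (h : Three G A B C) : Three G B C A :=
  ⟨h.hB, h.hC, h.hA, h.hBC, h.hAB.symm, h.hAC.symm, by rw [h.card]; ring, fun χ hχ => by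
    rcases h.degs χ hχ with h1 | h1 | h1
    · exact Or.inr (Or.inr h1)
    · exact Or.inl h1
    · exact Or.inr (Or.inl h1)⟩

theorem Three.vanish (h : Three G A B C) {r : ℕ} (hr : r.Prime) (hrA : r ∣ A) {χ : IrrCharacter G} (hχ : A ∣ deg χ)
    {y : G} (hy : r ∣ orderOf y) : (χ : G → ℂ) y = 0 := by
  have hA0 : A ≠ 0 := by have := h.hA; omega
  have hB0 : B ≠ 0 := by have := h.hB; omega
  have hC0 : C ≠ 0 := by have := h.hC; omega
  have hrB : ¬ r ∣ B * C := fun h1 =>
    hr.one_lt.ne' (Nat.eq_one_of_dvd_coprimes (h.hAB.mul_right h.hAC) hrA h1)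
  refine ColTools.vanish χ r (A.factorization r) hr ?_ ((Nat.ordProj_dvd A r).trans hχ) y hy
  rw [h.card, mul_assoc]
  intro h1
  have h2 : (r ^ (A.factorization r + 1)).Coprime (B * C) :=
    Nat.Coprime.pow_left _ ((Nat.Prime.coprime_iff_not_dvd hr).2 hrB)
  exact Nat.pow_succ_factorization_not_dvd hA0 hr (h2.dvd_of_dvd_mul_right h1)

theorem Three.no_elem (h : Three G A B C) {r s : ℕ} (hr : r.Prime) (hs : s.Prime) (hrA : r ∣ A) (hsB : s ∣ B)
    {y : G} (hry : r ∣ orderOf y) (hsy : s ∣ orderOf y) : False := by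
  have hy : y ≠ 1 := by
    rintro rfl
    rw [orderOf_one] at hry
    exact hr.one_lt.ne' (Nat.dvd_one.1 hry)
  refine no_common hy (n := C) h.hC fun χ hχ hχy => ?_
  rcases h.degs χ hχ with h1 | h1 | h1
  · exact absurd (h.vanish hr hrA h1 hry) hχy
  · exact absurd (h.swap.vanish hs hsB h1 hsy) hχy
  · exact h1

/-- the centralizer of an `r`-singular element, `r ∣ A`, has order dividing `A` -/
theorem Three.card_cent (h : Three G A B C) {r : ℕ} (hr : r.Prime) (hrA : r ∣ A) {x : G} (hx : orderOf x = r) :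
    Nat.card (centralizer ({x} : Set G)) ∣ A := by
  have key : ∀ s : ℕ, s.Prime → s ∣ Nat.card (centralizer ({x} : Set G)) → ¬ s ∣ B * C := by
    intro s hs hsd hsBC
    have hsf : Fact s.Prime := ⟨hs⟩
    have hrBC : ¬ r ∣ B * C := fun h1 =>
      hr.one_lt.ne' (Nat.eq_one_of_dvd_coprimes (h.hAB.mul_right h.hAC) hrA h1)
    have hrs : r.Coprime s := (Nat.coprime_primes hr hs).2 (by rintro rfl; exact hrBC hsBC)
    obtain ⟨z, hz⟩ := exists_prime_orderOf_dvd_card' s hsd
    have hzc : Commute x (z : G) := (mem_centralizer_singleton_iff.1 z.2).symm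
    have hzo : orderOf (z : G) = s := by rw [Subgroup.orderOf_coe, hz]
    have ho : orderOf (x * z) = r * s := by
      rw [hzc.orderOf_mul_eq_mul_orderOf_of_coprime (by rw [hx, hzo]; exact hrs), hx, hzo]
    rcases (Nat.Prime.dvd_mul hs).1 hsBC with h1 | h1
    · exact h.no_elem hr hs hrA h1 (y := x * z) (by rw [ho]; exact dvd_mul_right _ _) (by rw [ho]; exact dvd_mul_left _ _)
    · exact h.rot.rot.swap.no_elem hr hs hrA h1 (y := x * z) (by rw [ho]; exact dvd_mul_right _ _)
        (by rw [ho]; exact dvd_mul_left _ _)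
  have h1 : Nat.card (centralizer ({x} : Set G)) ∣ A * (B * C) := by
    rw [← mul_assoc, ← h.card]; exact card_subgroup_dvd_card _
  refine Nat.Coprime.dvd_of_dvd_mul_right ?_ h1
  refine Nat.Coprime.symm (Nat.coprime_of_dvd fun s hs hs1 hs2 => ?_)
  exact key s hs hs2 hs1

/-- abelian Sylow subgroup -/
theorem Three.cent_eq {p f : ℕ} (h : Three G A B C) (hp : p.Prime) (hA : A = p ^ f) (P : Sylow p G)
    (hab : ∀ x ∈ (P : Subgroup G), ∀ y ∈ (P : Subgroup G), x * y = y * x) {x : G} (hx : x ∈ (P : Subgroup G))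
    (hx1 : x ≠ 1) : centralizer ({x} : Set G) = P := by
  have hpf : Fact p.Prime := ⟨hp⟩
  have hpA : p ∣ A := by
    have hf : f ≠ 0 := by
      rintro rfl
      have := h.hA
      rw [hA, pow_zero] at this; omega
    rw [hA]; exact dvd_pow_self p hf
  have hle : (P : Subgroup G) ≤ centralizer ({x} : Set G) := fun z hz =>
    mem_centralizer_singleton_iff.2 (hab z hz x hx)
  -- a power of `x` of order `p`
  obtain ⟨k, hk⟩ := (IsPGroup.iff_orderOf.1 P.2) ⟨x, hx⟩
  rw [Subgroup.orderOf_mk] at hk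
  have hk0 : k ≠ 0 := by
    rintro rfl
    rw [pow_zero, orderOf_eq_one_iff] at hk
    exact hx1 hk
  have ho : orderOf (x ^ p ^ (k - 1)) = p := by
    rw [orderOf_pow, hk, Nat.gcd_eq_right (pow_dvd_pow p (by omega)), Nat.pow_div (by omega) hp.pos,
      show k - (k - 1) = 1 by omega, pow_one]
  have h1 := h.card_cent hp hpA ho
  have h2 : centralizer ({x} : Set G) ≤ centralizer ({x ^ p ^ (k - 1)} : Set G) := by
    intro z hz
    rw [mem_centralizer_singleton_iff] at hz ⊢
    exact (Commute.pow_right (show Commute z x from hz) _).eq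
  have h3 : Nat.card (centralizer ({x} : Set G)) ∣ A := (card_dvd_of_le h2).trans h1
  have h4 : IsPGroup p (centralizer ({x} : Set G)) := by
    rw [hA] at h3
    obtain ⟨j, -, hj⟩ := (Nat.dvd_prime_pow hp).1 h3
    exact IsPGroup.of_card hj
  exact P.3 h4 hle

end Cfsg.Agent.Lib.FirstCol
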