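import Cfsg.Agent.S0254
import Cfsg.Agent.Lib.SuzukiLie
import Cfsg.Agent.Lib.SzLie2
import Cfsg.Agent.Lib.ClSmall
import Cfsg.Agent.Lib.ClSLn
import Cfsg.Agent.Lib.ThreePrimes
import Cfsg.Agent.Lib.PSLSpectrum

/-!
# S3406: simple groups with at most five automorphism orbits (helper41), from S3718
-/

set_option autoImplicit false

namespace Cfsg.Agent.Lib.FiveOrb41

open Cfsg.Agent.Lib

universe u

theorem card_psl2 {F : Type u} [Field F] [Fintype F] {q : ℕ} (hF : Fintype.card F = q) :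
    Nat.gcd 2 (q - 1) * Nat.card (Matrix.ProjectiveSpecialLinearGroup (Fin 2) F) = q * (q ^ 2 - 1) := by
  have h := ClSLn.card_PSL_formula hF 2 (by norm_num)
  have hq : 1 < q := by rw [← hF]; exact Fintype.one_lt_card
  simp only [Finset.prod_range_succ, Finset.range_zero, Finset.prod_empty] at h
  have h0 : 0 < q - 1 := by omega
  apply Nat.eq_of_mul_eq_mul_left h0
  calc (q - 1) * (Nat.gcd 2 (q - 1) * Nat.card (Matrix.ProjectiveSpecialLinearGroup (Fin 2) F)) =
      Nat.gcd 2 (q - 1) * ((q - 1) * Nat.card (Matrix.ProjectiveSpecialLinearGroup (Fin 2) F)) := by ring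
    _ = _ := by rw [h]; simp; ring

/-- the number of element orders is at most the number of automorphism orbits -/
theorem ncard_orders {G : Type*} [Group G] [Finite G] :
    (Set.range (orderOf : G → ℕ)).ncard ≤ Nat.card (MulAction.orbitRel.Quotient (MulAut G) G) := by
  classical
  have h1 : ∀ a b : G, (MulAction.orbitRel (MulAut G) G) a b → orderOf a = orderOf b := by
    intro a b h
    obtain ⟨φ, hφ⟩ := MulAction.orbitRel_apply.1 h
    rw [← hφ]
    exact MulEquiv.orderOf_eq φ b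
  let f : MulAction.orbitRel.Quotient (MulAut G) G → Set.range (orderOf : G → ℕ) :=
    Quotient.lift (s := MulAction.orbitRel (MulAut G) G) (fun g => ⟨orderOf g, g, rfl⟩)
      (fun a b h => Subtype.ext (h1 a b h))
  have hf : Function.Surjective f := by
    rintro ⟨_, g, rfl⟩
    exact ⟨Quotient.mk _ g, rfl⟩
  have hfin : Finite (MulAction.orbitRel.Quotient (MulAut G) G) := Quotient.finite _
  rw [← Nat.card_coe_set_eq]
  exact Nat.card_le_card_of_surjective f hf

theorem exists_order_four_psl3 {F : Type*} [Field F] [Fintype F] (hF : Fintype.card F = 4) :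
    ∃ g : Matrix.ProjectiveSpecialLinearGroup (Fin 3) F, 4 ∣ orderOf g := by
  have h2 : Fact (Nat.Prime 2) := ⟨Nat.prime_two⟩
  obtain ⟨p, hp⟩ := CharP.exists F
  obtain ⟨n, hpp, hn⟩ := FiniteField.card F p
  have hp2 : p = 2 := by
    have h3 : p ∣ 2 ^ 2 := by
      rw [show (2 : ℕ) ^ 2 = 4 by norm_num, ← hF, hn]
      exact dvd_pow_self _ n.ne_zero
    exact (Nat.prime_dvd_prime_iff_eq hpp Nat.prime_two).1 (hpp.dvd_of_dvd_pow h3)
  subst hp2
  obtain ⟨U, hU, ⟨v, hv, hUv⟩, -, h4⟩ := PSLSpectrum.exists_unipotent (F := F) 2 3 (by norm_num)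
  obtain ⟨g, hg⟩ := PSLSpectrum.exists_psl (F := F) (V := Fin 3 → F) (n := 3) (by simp) U hU
  refine ⟨g, ?_⟩
  obtain ⟨c, hc⟩ := (hg (orderOf g)).1 (pow_orderOf_eq_one g)
  have hk : ∀ k : ℕ, (U ^ k) v = v := by
    intro k
    induction k with
    | zero => rfl
    | succ k ih => rw [pow_succ, Module.End.mul_apply, hUv, ih]
  have h5 : v = c • v := by
    nth_rewrite 1 [← hk (orderOf g)]
    rw [hc]; rfl
  have h6 : c = 1 := by
    have h7 : (1 - c) • v = 0 := by rw [sub_smul, one_smul, ← h5, sub_self]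
    rcases smul_eq_zero.1 h7 with h8 | h8
    · exact (sub_eq_zero.1 h8).symm
    · exact absurd h8 hv
  rw [h6, one_smul] at hc
  exact h4 _ hc 1 (by norm_num)

theorem exists_order_four_sz {F : Type*} [Field F] [Fintype F] {m : ℕ} (_hm : 1 ≤ m)
    (hF : Fintype.card F = 2 ^ (2 * m + 1)) :
    ∃ g : Cfsg.Lie.Sz F (2 ^ (m + 1)), orderOf g = 4 := by
  have hchar : CharP F 2 := SzLie.charP_two hF
  have h2 : Fact (Nat.Prime 2) := ⟨Nat.prime_two⟩
  have h11 : (1 : F) + 1 = 0 := CharTwo.add_self_eq_zero 1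
  have hsq : SzLie.uS hF 1 0 ^ 2 = SzLie.uS hF 0 1 := by
    rw [pow_two, SzLie.uS_mul, h11, map_one]; simp
  have hne : SzLie.uS hF (0 : F) 1 ≠ 1 := by
    intro h
    have h3 : SzLie.uS hF (0 : F) 1 = SzLie.uS hF 0 0 := by rw [h, SzLie.uS_zero]
    have h4 := congrArg (fun g : Cfsg.Lie.Sz F (2 ^ (m + 1)) => g.1.1) h3
    change SzLie.Um (SzLie.tht F m) 0 1 = SzLie.Um (SzLie.tht F m) 0 0 at h4
    have h5 := congrFun (congrFun h4 0) 2
    simp [SzLie.Um] at h5
  have h4 : SzLie.uS hF 1 0 ^ 4 = 1 := by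
    change SzLie.uS hF 1 0 ^ (2 * 2) = 1
    rw [pow_mul, hsq, pow_two, SzLie.uS_mul, h11]
    simp [SzLie.uS_zero]
  refine ⟨SzLie.uS hF 1 0, ?_⟩
  have h5 := orderOf_eq_prime_pow (p := 2) (n := 1) (x := SzLie.uS hF 1 0)
    (by rw [pow_one, hsq]; exact hne) (by norm_num; exact h4)
  rw [h5]; norm_num

theorem pf_three {N x y z a b c : ℕ} (hx : x.Prime) (hy : y.Prime) (hz : z.Prime)
    (h : N ∣ x ^ a * y ^ b * z ^ c) : N.primeFactors.card ≤ 3 := by
  have h1 : N.primeFactors ⊆ {x, y, z} := by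
    intro p hp
    have hpp := Nat.prime_of_mem_primeFactors hp
    have h2 := (Nat.dvd_of_mem_primeFactors hp).trans h
    rcases (Nat.Prime.dvd_mul hpp).1 h2 with h3 | h3
    · rcases (Nat.Prime.dvd_mul hpp).1 h3 with h4 | h4
      · have := (Nat.prime_dvd_prime_iff_eq hpp hx).1 (hpp.dvd_of_dvd_pow h4)
        simp [this]
      · have := (Nat.prime_dvd_prime_iff_eq hpp hy).1 (hpp.dvd_of_dvd_pow h4)
        simp [this]
    · have := (Nat.prime_dvd_prime_iff_eq hpp hz).1 (hpp.dvd_of_dvd_pow h3)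
      simp [this]
  exact (Finset.card_le_card h1).trans Finset.card_le_three

theorem pf_four {N w x y z : ℕ} (hN : N ≠ 0) (hw : w.Prime) (hx : x.Prime) (hy : y.Prime) (hz : z.Prime)
    (h1 : w ∣ N) (h2 : x ∣ N) (h3 : y ∣ N) (h4 : z ∣ N) (e1 : w ≠ x) (e2 : w ≠ y) (e3 : w ≠ z)
    (e4 : x ≠ y) (e5 : x ≠ z) (e6 : y ≠ z) : 4 ≤ N.primeFactors.card := by
  have h5 : ({w, x, y, z} : Finset ℕ) ⊆ N.primeFactors := by
    intro p hp
    simp only [Finset.mem_insert, Finset.mem_singleton] at hp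
    rw [Nat.mem_primeFactors]
    rcases hp with rfl | rfl | rfl | rfl
    · exact ⟨hw, h1, hN⟩
    · exact ⟨hx, h2, hN⟩
    · exact ⟨hy, h3, hN⟩
    · exact ⟨hz, h4, hN⟩
  have h6 : ({w, x, y, z} : Finset ℕ).card = 4 := by
    rw [Finset.card_insert_of_notMem, Finset.card_insert_of_notMem, Finset.card_insert_of_notMem,
      Finset.card_singleton]
    · simp [e6]
    · simp [e4, e5]
    · simp [e1, e2, e3]
  rw [← h6]
  exact Finset.card_le_card h5

theorem four_false {G : Type*} [Group G] [Finite G] [IsSimpleGroup G]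
    (hE : (∀ g : G, g ≠ 1 → IsPrimePow (orderOf g)) →
      (Nonempty (G ≃* alternatingGroup (Fin 6)) ∨
      (∃ (F : Type) (_ : Field F) (_ : Fintype F), Fintype.card F ∈ ({4, 7, 8, 17} : Finset ℕ) ∧
        Nonempty (G ≃* Matrix.ProjectiveSpecialLinearGroup (Fin 2) F)) ∨
      (∃ (F : Type) (_ : Field F) (_ : Fintype F), Fintype.card F = 4 ∧
        Nonempty (G ≃* Matrix.ProjectiveSpecialLinearGroup (Fin 3) F)) ∨
      (∃ (F : Type) (_ : Field F) (_ : Fintype F),
        (Fintype.card F = 8 ∧ Nonempty (G ≃* ↥(Cfsg.Lie.Sz F 4))) ∨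
          (Fintype.card F = 32 ∧ Nonempty (G ≃* ↥(Cfsg.Lie.Sz F 8))))))
    (hω : (Set.range (orderOf : G → ℕ)).ncard ≤ 5) (h4 : 4 ≤ (Nat.card G).primeFactors.card) : False := by
  classical
  have hsub : (insert 1 (↑(Nat.card G).primeFactors) : Set ℕ) ⊆ Set.range (orderOf : G → ℕ) := by
    intro p hp
    rcases hp with rfl | hp
    · exact ⟨1, orderOf_one⟩
    · have hpp : p.Prime := Nat.prime_of_mem_primeFactors hp
      have := Fact.mk hpp
      obtain ⟨g, hg⟩ := exists_prime_orderOf_dvd_card' (G := G) p (Nat.dvd_of_mem_primeFactors hp)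
      exact ⟨g, hg⟩
  have h1 : (1 : ℕ) ∉ (↑(Nat.card G).primeFactors : Set ℕ) := by
    intro h
    exact Nat.not_prime_one (Nat.prime_of_mem_primeFactors h)
  have hcard : (insert 1 (↑(Nat.card G).primeFactors) : Set ℕ).ncard = (Nat.card G).primeFactors.card + 1 := by
    rw [Set.ncard_insert_of_notMem h1, Set.ncard_coe_finset]
  have heq := Set.eq_of_subset_of_ncard_le hsub (by rw [hcard]; omega) (Set.finite_range _)
  have hall : ∀ g : G, orderOf g = 1 ∨ (orderOf g).Prime := by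
    intro g
    have h2 : orderOf g ∈ (insert 1 (↑(Nat.card G).primeFactors) : Set ℕ) := by rw [heq]; exact ⟨g, rfl⟩
    rcases h2 with h2 | h2
    · exact Or.inl h2
    · exact Or.inr (Nat.prime_of_mem_primeFactors h2)
  have hno4 : ∀ g : G, ¬ 4 ∣ orderOf g := by
    intro g hg
    rcases hall g with h2 | h2
    · rw [h2] at hg; omega
    · have h3 : 2 ∣ orderOf g := (by norm_num : 2 ∣ 4).trans hg
      have h5 := (Nat.prime_dvd_prime_iff_eq Nat.prime_two h2).1 h3
      rw [← h5] at hg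
      omega
  rcases hE (fun g hg => by
    rcases hall g with h2 | h2
    · exact absurd (orderOf_eq_one_iff.1 h2) hg
    · exact h2.isPrimePow) with ⟨⟨e⟩⟩ | ⟨F, _, _, hF, ⟨e⟩⟩ | ⟨F, _, _, hF, ⟨e⟩⟩ | ⟨F, _, _, hF⟩
  · have h2 : Nat.card G = 360 := by
      rw [Nat.card_congr e.toEquiv, nat_card_alternatingGroup, Nat.card_fin]; rfl
    rw [h2] at h4
    have := pf_three (N := 360) (x := 2) (y := 3) (z := 5) (a := 3) (b := 2) (c := 1) (by norm_num)
      (by norm_num) (by norm_num) (by norm_num)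
    omega
  · have key : ∀ q a b c z : ℕ, Fintype.card F = q → z.Prime → q * (q ^ 2 - 1) ∣ 2 ^ a * 3 ^ b * z ^ c → False := by
      intro q a b c z hq hz h5
      have h6 := card_psl2 hq
      have h7 : Nat.card G ∣ 2 ^ a * 3 ^ b * z ^ c := by
        rw [Nat.card_congr e.toEquiv]
        exact (Dvd.intro_left _ h6).trans h5
      have := pf_three Nat.prime_two Nat.prime_three hz h7
      omega
    simp only [Finset.mem_insert, Finset.mem_singleton] at hF
    rcases hF with hF | hF | hF | hF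
    · exact key 4 2 1 1 5 hF (by norm_num) (by norm_num)
    · exact key 7 4 1 1 7 hF (by norm_num) (by norm_num)
    · exact key 8 3 2 1 7 hF (by norm_num) (by norm_num)
    · exact key 17 5 2 1 17 hF (by norm_num) (by norm_num)
  · obtain ⟨g, hg⟩ := exists_order_four_psl3 hF
    exact hno4 (e.symm g) (by rw [MulEquiv.orderOf_eq]; exact hg)
  · rcases hF with ⟨hF, ⟨e⟩⟩ | ⟨hF, ⟨e⟩⟩
    · obtain ⟨g, hg⟩ := exists_order_four_sz (F := F) (m := 1) le_rfl (by rw [hF]; norm_num)
      exact hno4 (e.symm g) (by rw [MulEquiv.orderOf_eq, hg])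
    · obtain ⟨g, hg⟩ := exists_order_four_sz (F := F) (m := 2) (by norm_num) (by rw [hF]; norm_num)
      exact hno4 (e.symm g) (by rw [MulEquiv.orderOf_eq, hg])

theorem main {G : Type*} [Group G] [Finite G] [IsSimpleGroup G] (hG : ¬ IsMulCommutative G)
    (h5 : Nat.card (MulAction.orbitRel.Quotient (MulAut G) G) ≤ 5)
    (hE : (∀ g : G, g ≠ 1 → IsPrimePow (orderOf g)) →
      (Nonempty (G ≃* alternatingGroup (Fin 6)) ∨
      (∃ (F : Type) (_ : Field F) (_ : Fintype F), Fintype.card F ∈ ({4, 7, 8, 17} : Finset ℕ) ∧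
        Nonempty (G ≃* Matrix.ProjectiveSpecialLinearGroup (Fin 2) F)) ∨
      (∃ (F : Type) (_ : Field F) (_ : Fintype F), Fintype.card F = 4 ∧
        Nonempty (G ≃* Matrix.ProjectiveSpecialLinearGroup (Fin 3) F)) ∨
      (∃ (F : Type) (_ : Field F) (_ : Fintype F),
        (Fintype.card F = 8 ∧ Nonempty (G ≃* ↥(Cfsg.Lie.Sz F 4))) ∨
          (Fintype.card F = 32 ∧ Nonempty (G ≃* ↥(Cfsg.Lie.Sz F 8))))))
    (h3718 : {n : ℕ | n ∈ Set.range (orderOf : G → ℕ) ∧ 1 < n ∧ ¬ n.Prime}.Subsingleton →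
      ((Nat.card G).Prime ∨
      (∃ (F : Type) (_ : Field F) (_ : Fintype F), (Fintype.card F = 5 ∨ Fintype.card F = 7 ∨ Fintype.card F = 8 ∨ Fintype.card F = 9 ∨
          Fintype.card F = 11 ∨ Fintype.card F = 13 ∨ Fintype.card F = 16) ∧ Nonempty (G ≃* Matrix.ProjectiveSpecialLinearGroup (Fin 2) F)) ∨
      (∃ (F : Type) (_ : Field F) (_ : Fintype F), Fintype.card F = 4 ∧ Nonempty (G ≃* Matrix.ProjectiveSpecialLinearGroup (Fin 3) F)) ∨
      (∃ (F : Type) (_ : Field F) (_ : Fintype F), Fintype.card F = 8 ∧ Nonempty (G ≃* ↥(Cfsg.Lie.Sz F 4))) ∨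
      (∃ (F : Type) (_ : Field F) (_ : Fintype F), ∃ n r s : ℕ, r.Prime ∧ s.Prime ∧ 3 ^ n - 1 = 2 * r ∧ 3 ^ n + 1 = 4 * s ∧
          Fintype.card F = 3 ^ n ∧ Nonempty (G ≃* Matrix.ProjectiveSpecialLinearGroup (Fin 2) F)) ∨
      (∃ (F : Type) (_ : Field F) (_ : Fintype F), ∃ n r : ℕ, (2 ^ n - 1).Prime ∧ r.Prime ∧ 2 ^ n + 1 = 3 * r ∧
          Fintype.card F = 2 ^ n ∧ Nonempty (G ≃* Matrix.ProjectiveSpecialLinearGroup (Fin 2) F)))) :
    Nonempty (G ≃* ↥(alternatingGroup (Fin 5))) ∨ Nonempty (G ≃* ↥(alternatingGroup (Fin 6))) ∨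
      (∃ (F : Type) (_ : Field F) (_ : Fintype F), (Fintype.card F = 7 ∨ Fintype.card F = 8) ∧
        Nonempty (G ≃* Matrix.ProjectiveSpecialLinearGroup (Fin 2) F)) := by
  classical
  have hω := ncard_orders.trans h5
  have hns : ¬ Group.IsSolvable G := by
    intro hs
    apply hG
    have h1 : ∀ a b : G, a * b = b * a := IsSimpleGroup.comm_iff_isSolvable.2 hs
    exact ⟨⟨h1⟩⟩
  obtain ⟨p, q, r, hp, hq, hr, hpG, hqG, hrG, hpq, hpr, hqr⟩ := ThreePrimes.exists_three_primes hns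
  have hsubs : {n : ℕ | n ∈ Set.range (orderOf : G → ℕ) ∧ 1 < n ∧ ¬ n.Prime}.Subsingleton := by
    rintro n ⟨hn, hn1, hnp⟩ m ⟨hm, hm1, hmp⟩
    by_contra hne
    have hpr' : ∀ l : ℕ, l.Prime → l ∣ Nat.card G → l ∈ Set.range (orderOf : G → ℕ) := by
      intro l hl hlG
      have := Fact.mk hl
      obtain ⟨g, hg⟩ := exists_prime_orderOf_dvd_card' (G := G) l hlG
      exact ⟨g, hg⟩
    have hsub : (↑({1, p, q, r, n, m} : Finset ℕ) : Set ℕ) ⊆ Set.range (orderOf : G → ℕ) := by
      intro x hx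
      simp only [Finset.coe_insert, Finset.coe_singleton, Set.mem_insert_iff, Set.mem_singleton_iff] at hx
      rcases hx with rfl | rfl | rfl | rfl | rfl | rfl
      · exact ⟨1, orderOf_one⟩
      · exact hpr' _ hp hpG
      · exact hpr' _ hq hqG
      · exact hpr' _ hr hrG
      · exact hn
      · exact hm
    have hcard : ({1, p, q, r, n, m} : Finset ℕ).card = 6 := by
      have e1 : ∀ l : ℕ, l.Prime → 1 ≠ l := fun l hl h => Nat.not_prime_one (h ▸ hl)
      have e2 : ∀ l : ℕ, l.Prime → l ≠ n := fun l hl h => hnp (h ▸ hl)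
      have e3 : ∀ l : ℕ, l.Prime → l ≠ m := fun l hl h => hmp (h ▸ hl)
      rw [Finset.card_insert_of_notMem, Finset.card_insert_of_notMem, Finset.card_insert_of_notMem,
        Finset.card_insert_of_notMem, Finset.card_insert_of_notMem, Finset.card_singleton]
      · simp [hne]
      · simp [e2 r hr, e3 r hr]
      · simp [hqr, e2 q hq, e3 q hq]
      · simp [hpq, hpr, e2 p hp, e3 p hp]
      · simp only [Finset.mem_insert, Finset.mem_singleton, not_or]
        exact ⟨e1 p hp, e1 q hq, e1 r hr, by omega, by omega⟩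
    have h7 := Set.ncard_le_ncard hsub (Set.finite_range _)
    rw [Set.ncard_coe_finset, hcard] at h7
    omega
  have hNe : Nat.card G ≠ 0 := Nat.card_pos.ne'
  have hlt : ∀ w x y z : ℕ, w.Prime → x.Prime → y.Prime → z.Prime → w ∣ Nat.card G → x ∣ Nat.card G →
      y ∣ Nat.card G → z ∣ Nat.card G → w ≠ x → w ≠ y → w ≠ z → x ≠ y → x ≠ z → y ≠ z → False := by
    intro w x y z hw hx hy hz h1 h2 h3 h4 e1 e2 e3 e4 e5 e6
    exact four_false hE hω (pf_four hNe hw hx hy hz h1 h2 h3 h4 e1 e2 e3 e4 e5 e6)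
  rcases h3718 hsubs with h | ⟨F, i1, i2, hF, ⟨e⟩⟩ | ⟨F, i1, i2, hF, ⟨e⟩⟩ | ⟨F, i1, i2, hF, ⟨e⟩⟩ |
    ⟨F, i1, i2, n, r', s, hr', hs, h1, h2, hF, ⟨e⟩⟩ | ⟨F, i1, i2, n, r', hl, hr', h1, hF, ⟨e⟩⟩
  · exfalso
    have := Fact.mk h
    have hc : IsCyclic G := isCyclic_of_prime_card rfl
    exact hG inferInstance
  · have hc : ∀ q : ℕ, Fintype.card F = q → Nat.gcd 2 (q - 1) * Nat.card G = q * (q ^ 2 - 1) := by
      intro q hq
      rw [Nat.card_congr e.toEquiv]
      exact card_psl2 hq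
    rcases hF with hF | hF | hF | hF | hF | hF | hF
    · left
      obtain ⟨f⟩ := ClSmall.psl2_five hF
      exact ⟨e.trans f⟩
    · exact Or.inr (Or.inr ⟨F, i1, i2, Or.inl hF, ⟨e⟩⟩)
    · exact Or.inr (Or.inr ⟨F, i1, i2, Or.inr hF, ⟨e⟩⟩)
    · right; left
      obtain ⟨f⟩ := Cfsg.Agent.S0254.result (F := F) hF
      exact ⟨e.trans f⟩
    · exfalso
      have h3 := hc 11 hF
      norm_num at h3
      exact hlt 2 3 5 11 (by norm_num) (by norm_num) (by norm_num) (by norm_num) (by omega) (by omega)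
        (by omega) (by omega) (by norm_num) (by norm_num) (by norm_num) (by norm_num) (by norm_num) (by norm_num)
    · exfalso
      have h3 := hc 13 hF
      norm_num at h3
      exact hlt 2 3 7 13 (by norm_num) (by norm_num) (by norm_num) (by norm_num) (by omega) (by omega)
        (by omega) (by omega) (by norm_num) (by norm_num) (by norm_num) (by norm_num) (by norm_num) (by norm_num)
    · exfalso
      have h3 := hc 16 hF
      norm_num at h3
      exact hlt 2 3 5 17 (by norm_num) (by norm_num) (by norm_num) (by norm_num) (by omega) (by omega)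
        (by omega) (by omega) (by norm_num) (by norm_num) (by norm_num) (by norm_num) (by norm_num) (by norm_num)
  · exfalso
    have h3 := ClSLn.card_PSL_formula (F := F) hF 3 (by norm_num)
    rw [← Nat.card_congr e.toEquiv] at h3
    norm_num [Finset.prod_range_succ] at h3
    exact hlt 2 3 5 7 (by norm_num) (by norm_num) (by norm_num) (by norm_num) (by omega) (by omega)
        (by omega) (by omega) (by norm_num) (by norm_num) (by norm_num) (by norm_num) (by norm_num) (by norm_num)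
  · exfalso
    have hF' : Fintype.card F = 2 ^ (2 * 1 + 1) := by rw [hF]; norm_num
    have hchar : CharP F 2 := SuzukiFin.charTwo hF'
    have h3 := SuzukiGroup.card_G (SuzukiFin.th F 1) (SuzukiFin.th_sq hF') (SuzukiFin.th_ne le_rfl hF')
    have heq := SuzukiFin.Sz_eq (F := F) 1
    have h4 : Nat.card G = Nat.card (SuzukiOvoid.Gz (SuzukiFin.th F 1)) := by
      rw [Nat.card_congr (e.trans (SuzukiLie.szEquiv (F := F) 1 le_rfl hF').symm).toEquiv, heq]
    rw [h3, Nat.card_eq_fintype_card (α := F), hF] at h4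
    norm_num at h4
    exact hlt 2 5 7 13 (by norm_num) (by norm_num) (by norm_num) (by norm_num) (by omega) (by omega)
        (by omega) (by omega) (by norm_num) (by norm_num) (by norm_num) (by norm_num) (by norm_num) (by norm_num)
  · exfalso
    have h3 := card_psl2 (F := F) (q := 3 ^ n) hF
    rw [← Nat.card_congr e.toEquiv] at h3
    have hn : n ≠ 0 := by
      rintro rfl
      norm_num at h1
      exact hr'.ne_zero h1
    obtain ⟨k, rfl⟩ : ∃ k, n = k + 1 := ⟨n - 1, by omega⟩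
    obtain ⟨w, hw⟩ : ∃ w, w = 3 ^ k := ⟨_, rfl⟩
    have h3n : 3 ^ (k + 1) = 3 * w := by rw [hw, pow_succ, mul_comm]
    rw [h3n] at h1 h2 h3
    have hr2 := hr'.two_le
    have hs2 := hs.two_le
    have hq : 3 * w = 2 * r' + 1 := by omega
    have hrs : r' + 1 = 2 * s := by omega
    have hg : Nat.gcd 2 (3 * w - 1) = 2 := by rw [h1]; simp
    have h6 : Nat.card G = 3 * w * (4 * (r' * s)) := by
      have h7 : (3 * w) ^ 2 - 1 = 8 * (r' * s) := by
        have h8 : (3 * w) ^ 2 = 8 * (r' * s) + 1 := by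
          have h9 : (3 * w) ^ 2 = (3 * w - 1) * (3 * w + 1) + 1 := by
            obtain ⟨v, hv⟩ : ∃ v, 3 * w = v + 1 := ⟨3 * w - 1, by omega⟩
            rw [hv]; simp; ring
          rw [h9, h1, h2]; ring
        omega
      rw [hg, h7] at h3
      have h8 : 3 * w * (8 * (r' * s)) = 2 * (3 * w * (4 * (r' * s))) := by ring
      omega
    have hr3 : r' ≠ 3 := by omega
    have hs3 : s ≠ 3 := by omega
    have hs2' : s ≠ 2 := by omega
    have hr2' : r' ≠ 2 := by omega
    exact hlt 2 3 r' s (by norm_num) (by norm_num) hr' hs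
      (by rw [h6]; exact ⟨3 * w * (2 * (r' * s)), by ring⟩)
      (by rw [h6]; exact ⟨w * (4 * (r' * s)), by ring⟩)
      (by rw [h6]; exact ⟨3 * w * (4 * s), by ring⟩)
      (by rw [h6]; exact ⟨3 * w * (4 * r'), by ring⟩)
      (by norm_num) hr2'.symm hs2'.symm hr3.symm hs3.symm (by omega)
  · by_cases hr3 : r' = 3
    · right; right
      exact ⟨F, i1, i2, Or.inr (by omega), ⟨e⟩⟩
    · exfalso
      have h3 := card_psl2 (F := F) (q := 2 ^ n) hF
      rw [← Nat.card_congr e.toEquiv] at h3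
      have hl2 := hl.two_le
      have hn : n ≠ 0 := by
        rintro rfl
        norm_num at hl2
      obtain ⟨k, rfl⟩ : ∃ k, n = k + 1 := ⟨n - 1, by omega⟩
      obtain ⟨w, hw⟩ : ∃ w, w = 2 ^ k := ⟨_, rfl⟩
      have h3n : 2 ^ (k + 1) = 2 * w := by rw [hw, pow_succ, mul_comm]
      rw [h3n] at h1 hl hl2 h3
      obtain ⟨l, hl'⟩ : ∃ l, l = 2 * w - 1 := ⟨_, rfl⟩
      rw [← hl'] at hl hl2 h3
      have hg : Nat.gcd 2 l = 1 := by
        have : Odd l := ⟨w - 1, by omega⟩
        exact Nat.coprime_two_left.2 this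
      have h6 : Nat.card G = 2 * w * (l * (3 * r')) := by
        have h7 : (2 * w) ^ 2 - 1 = l * (3 * r') := by
          have h9 : (2 * w) ^ 2 = (2 * w - 1) * (2 * w + 1) + 1 := by
            obtain ⟨v, hv⟩ : ∃ v, 2 * w = v + 1 := ⟨2 * w - 1, by omega⟩
            rw [hv]; simp; ring
          rw [h9, ← hl', h1]; simp
        rw [hg, h7, one_mul] at h3
        exact h3
      have hr2 := hr'.two_le
      have hr2' : r' ≠ 2 := by omega
      have hl2' : l ≠ 2 := by omega
      have hl3 : l ≠ 3 := by omega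
      have hlr : l ≠ r' := by omega
      exact hlt 2 3 l r' (by norm_num) (by norm_num) hl hr'
        (by rw [h6]; exact ⟨w * (l * (3 * r')), by ring⟩)
        (by rw [h6]; exact ⟨2 * w * (l * r'), by ring⟩)
        (by rw [h6]; exact ⟨2 * w * (3 * r'), by ring⟩)
        (by rw [h6]; exact ⟨2 * w * (l * 3), by ring⟩)
        (by norm_num) hl2'.symm hr2'.symm hl3.symm (Ne.symm hr3) hlr

end Cfsg.Agent.Lib.FiveOrb41
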