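import Mathlib

set_option autoImplicit false
set_option linter.unusedSectionVars false

/-!
# Transitive actions of fixity k (helper56)

Basic lemmas about a finite group `G` acting transitively on `Ω`, where every non-identity element
has at most `k` fixed points.
-/

namespace Cfsg.Agent.Lib.Fixity

open MulAction

variable {G Ω : Type*} [Group G] [Finite G] [MulAction G Ω] [Finite Ω]

/-- A `p`-subgroup: number of points is congruent to the number of fixed points. -/
theorem card_modEq_fix {p : ℕ} [Fact p.Prime] (P : Subgroup G) (hP : IsPGroup p P) :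
    Nat.card Ω ≡ Nat.card (fixedPoints P Ω) [MOD p] :=
  hP.card_modEq_card_fixedPoints Ω

theorem card_modEq_fixedBy {p : ℕ} [Fact p.Prime] (g : G) (hg : ∃ n, orderOf g = p ^ n) :
    Nat.card Ω ≡ Nat.card (fixedBy Ω g) [MOD p] := by
  have hP : IsPGroup p (Subgroup.zpowers g) := by
    rw [IsPGroup.iff_card, Nat.card_zpowers]; exact hg
  have h := card_modEq_fix (Ω := Ω) (Subgroup.zpowers g) hP
  have h2 : fixedPoints (Subgroup.zpowers g) Ω = fixedBy Ω g := by
    ext ω
    rw [mem_fixedPoints, mem_fixedBy]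
    constructor
    · intro h; exact h ⟨g, Subgroup.mem_zpowers g⟩
    · rintro h ⟨x, hx⟩
      have h3 : g ∈ stabilizer G ω := h
      have h4 : Subgroup.zpowers g ≤ stabilizer G ω := by
        rw [Subgroup.zpowers_le]; exact h3
      exact h4 hx
  rw [h2] at h
  exact h

theorem fixedPoints_subset_fixedBy (P : Subgroup G) (g : G) (hg : g ∈ P) :
    (fixedPoints P Ω : Set Ω) ⊆ fixedBy Ω g := by
  intro ω hω
  rw [mem_fixedPoints] at hω
  exact hω ⟨g, hg⟩

theorem card_fixedPoints_le (P : Subgroup G) (g : G) (hg : g ∈ P) :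
    Nat.card (fixedPoints P Ω) ≤ Nat.card (fixedBy Ω g) :=
  Nat.card_mono (Set.toFinite _) (fixedPoints_subset_fixedBy P g hg)

/-- If a Sylow `p`-subgroup `S` of `G` fixes `α` and `β` then some element of the normalizer of `S`
maps `α` to `β`. -/
theorem exists_normalizer_of_fix {p : ℕ} [Fact p.Prime] (htr : IsPretransitive G Ω)
    (S : Sylow p G) (α β : Ω) (hα : (S : Subgroup G) ≤ stabilizer G α)
    (hβ : (S : Subgroup G) ≤ stabilizer G β) :
    ∃ n ∈ Subgroup.normalizer ((S : Subgroup G) : Set G), n • α = β := by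
  obtain ⟨x, hx⟩ := htr.exists_smul_eq α β
  have h1 : ((x • S : Sylow p G) : Subgroup G) ≤ stabilizer G β := by
    rw [Sylow.coe_subgroup_smul]
    intro y hy
    rw [Subgroup.mem_pointwise_smul_iff_inv_smul_mem, ← map_inv, MulAut.smul_def,
      MulAut.conj_apply, inv_inv] at hy
    have h2 := hα hy
    rw [mem_stabilizer_iff] at h2 ⊢
    rw [mul_smul, mul_smul, hx, inv_smul_eq_iff, hx] at h2
    exact h2
  obtain ⟨y, hy⟩ := MulAction.exists_smul_eq (stabilizer G β) ((x • S).subtype h1) (S.subtype hβ)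
  have h3 : (y : G) • (x • S) = S := by
    have h4 := Sylow.smul_subtype h1 y
    rw [h4] at hy
    exact Sylow.subtype_injective hy
  refine ⟨y * x, ?_, ?_⟩
  · exact (Sylow.smul_eq_iff_mem_normalizer (g := (y : G) * x) (P := S)).1 (by rw [mul_smul]; exact h3)
  · rw [mul_smul, hx]
    exact y.2

/-- For a prime `p > k` the stabilizer has order or index prime to `p`. -/
theorem not_dvd_of_fixity {k : ℕ} (htr : IsPretransitive G Ω)
    (hfix : ∀ g : G, g ≠ 1 → Nat.card (fixedBy Ω g) ≤ k) {p : ℕ} (hp : p.Prime) (hpk : k < p) (α : Ω) :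
    ¬ p ∣ Nat.card (stabilizer G α) ∨ ¬ p ∣ (stabilizer G α).index := by
  by_contra hcon
  push Not at hcon
  have := Fact.mk hp
  obtain ⟨x, hx⟩ := exists_prime_orderOf_dvd_card' p hcon.1
  have hxo : orderOf (x : G) = p := by rw [Subgroup.orderOf_coe]; exact hx
  have hx1 : (x : G) ≠ 1 := by
    intro h; rw [h, orderOf_one] at hxo; exact hp.one_lt.ne hxo
  have h1 := card_modEq_fixedBy (Ω := Ω) (p := p) (x : G) ⟨1, by rw [hxo, pow_one]⟩
  have h2 : p ∣ Nat.card Ω := by
    rw [← index_stabilizer_of_transitive G α]; exact hcon.2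
  have h3 : p ∣ Nat.card (fixedBy Ω (x : G)) := (h1.dvd_iff (dvd_refl p)).1 h2
  have h4 : 0 < Nat.card (fixedBy Ω (x : G)) := by
    have : Nonempty (fixedBy Ω (x : G)) := ⟨⟨α, x.2⟩⟩
    exact Nat.card_pos
  have h5 := Nat.le_of_dvd h4 h3
  have h6 := hfix _ hx1
  omega

/-- Fixity 2 forces even order. -/
theorem two_dvd_card_of_fixity_two [FaithfulSMul G Ω] (htr : IsPretransitive G Ω)
    (hfix : ∀ g : G, g ≠ 1 → Nat.card (fixedBy Ω g) ≤ 2)
    (hex : ∃ g : G, g ≠ 1 ∧ Nat.card (fixedBy Ω g) = 2) : 2 ∣ Nat.card G := by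
  by_contra hodd
  obtain ⟨g, hg1, hg2⟩ := hex
  have hog : orderOf g ≠ 1 := fun h => hg1 (orderOf_eq_one_iff.1 h)
  set p := (orderOf g).minFac with hpdef
  have hp : p.Prime := Nat.minFac_prime hog
  have := Fact.mk hp
  have hpd : p ∣ orderOf g := Nat.minFac_dvd _
  have hp2 : p ≠ 2 := by
    intro h
    exact hodd (h ▸ hpd.trans (orderOf_dvd_natCard g))
  have hp3 : 3 ≤ p := by
    have := hp.two_le; omega
  set g' := g ^ (orderOf g / p) with hg'
  have hog' : orderOf g' = p := orderOf_pow_orderOf_div (orderOf_pos g).ne' hpd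
  have hg'1 : g' ≠ 1 := by
    intro h; rw [h, orderOf_one] at hog'; omega
  have hsub : (fixedBy Ω g : Set Ω) ⊆ fixedBy Ω g' := by
    intro ω hω
    rw [mem_fixedBy] at hω ⊢
    have h1 : g ∈ stabilizer G ω := hω
    exact (stabilizer G ω).pow_mem h1 _
  have hg'2 : Nat.card (fixedBy Ω g') = 2 := by
    have h1 := Nat.card_mono (Set.toFinite _) hsub
    have h2 := hfix g' hg'1
    have e : Nat.card (fixedBy Ω g) = 2 := hg2
    omega
  have hmod := card_modEq_fixedBy (Ω := Ω) (p := p) g' ⟨1, by rw [hog', pow_one]⟩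
  rw [hg'2] at hmod
  have hPg : IsPGroup p (Subgroup.zpowers g') := by
    rw [IsPGroup.iff_card, Nat.card_zpowers]; exact ⟨1, by rw [hog', pow_one]⟩
  obtain ⟨S, hS⟩ := hPg.exists_le_sylow
  have hg'S : g' ∈ (S : Subgroup G) := hS (Subgroup.mem_zpowers g')
  have hmod2 := card_modEq_fix (Ω := Ω) (S : Subgroup G) S.2
  have hle := card_fixedPoints_le (Ω := Ω) (S : Subgroup G) g' hg'S
  have hS2 : Nat.card (fixedPoints (S : Subgroup G) Ω) = 2 := by
    have h1 : Nat.card (fixedPoints (S : Subgroup G) Ω) ≡ 2 [MOD p] := hmod2.symm.trans hmod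
    rw [hg'2] at hle
    exact Nat.ModEq.eq_of_lt_of_lt h1 (by omega) (by omega)
  rw [Nat.card_eq_two_iff] at hS2
  obtain ⟨⟨α, hα⟩, ⟨β, hβ⟩, hne, huniv⟩ := hS2
  have hαβ : α ≠ β := fun h => hne (Subtype.ext h)
  have hSle : ∀ ω : Ω, ω ∈ fixedPoints (S : Subgroup G) Ω ↔ (S : Subgroup G) ≤ stabilizer G ω := by
    intro ω
    rw [mem_fixedPoints]
    exact ⟨fun h x hx => h ⟨x, hx⟩, fun h x => h x.2⟩
  obtain ⟨n, hn, hnα⟩ := exists_normalizer_of_fix htr S α β ((hSle α).1 hα) ((hSle β).1 hβ)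
  have hnβ : n • β ∈ fixedPoints (S : Subgroup G) Ω := by
    rw [mem_fixedPoints]
    rintro ⟨x, hx⟩
    show x • n • β = n • β
    have h1 : n⁻¹ * x * n ∈ (S : Subgroup G) := by
      have h2 := (Subgroup.mem_normalizer_iff.1 (Subgroup.inv_mem _ hn) x).1 hx
      simpa using h2
    have h3 := (hSle β).1 hβ h1
    rw [mem_stabilizer_iff, mul_smul, mul_smul, inv_smul_eq_iff] at h3
    exact h3
  have hnβα : n • β = α := by
    have h1 : (⟨n • β, hnβ⟩ : fixedPoints (S : Subgroup G) Ω) ∈ ({⟨α, hα⟩, ⟨β, hβ⟩} : Set _) := by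
      rw [huniv]; trivial
    rcases h1 with h2 | h2
    · exact congrArg Subtype.val h2
    · have h3 : n • β = β := congrArg Subtype.val h2
      rw [← hnα] at h3
      have h4 := smul_left_cancel n h3
      rw [hnα] at h4
      exact absurd h4.symm hαβ
  have hnodd : ¬ 2 ∣ orderOf n := fun h => hodd (h.trans (orderOf_dvd_natCard n))
  have hn2 : n ^ 2 ∈ stabilizer G α := by
    rw [mem_stabilizer_iff, sq, mul_smul, hnα, hnβα]
  obtain ⟨k, hk⟩ : ∃ k, orderOf n = 2 * k + 1 := by
    obtain ⟨k, hk⟩ := Nat.odd_iff.2 (by omega : orderOf n % 2 = 1)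
    exact ⟨k, hk⟩
  have hnn : n = (n ^ 2) ^ (k + 1) := by
    rw [← pow_mul, show 2 * (k + 1) = orderOf n + 1 by omega, pow_succ, pow_orderOf_eq_one, one_mul]
  have h5 : n ∈ stabilizer G α := by
    rw [hnn]; exact (stabilizer G α).pow_mem hn2 _
  rw [mem_stabilizer_iff, hnα] at h5
  exact hαβ h5.symm

/-- The centre acts semiregularly. -/
theorem card_center_dvd [FaithfulSMul G Ω] (htr : IsPretransitive G Ω) (g : G)
    : Nat.card (Subgroup.center G) ∣ Nat.card (fixedBy Ω g) := by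
  have hsmul : ∀ (z : Subgroup.center G) (ω : Ω), ω ∈ fixedBy Ω g → z • ω ∈ fixedBy Ω g := by
    intro z ω hω
    rw [mem_fixedBy] at hω ⊢
    show g • (z : G) • ω = (z : G) • ω
    rw [← mul_smul, Subgroup.mem_center_iff.1 z.2 g, mul_smul, hω]
  let act : MulAction (Subgroup.center G) (fixedBy Ω g) :=
    { smul := fun z ω => ⟨z • (ω : Ω), hsmul z ω ω.2⟩
      one_smul := fun ω => Subtype.ext (one_smul (Subgroup.center G) (ω : Ω))
      mul_smul := fun a b ω => Subtype.ext (mul_smul a b (ω : Ω)) }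
  have hfree : ∀ ω : fixedBy Ω g, stabilizer (Subgroup.center G) ω = ⊥ := by
    intro ω
    rw [eq_bot_iff]
    intro z hz
    rw [mem_stabilizer_iff] at hz
    have hz' : (z : G) • (ω : Ω) = ω := congrArg Subtype.val hz
    rw [Subgroup.mem_bot]
    apply Subtype.ext
    apply FaithfulSMul.eq_of_smul_eq_smul (α := Ω)
    intro a
    obtain ⟨x, hx⟩ := htr.exists_smul_eq (ω : Ω) a
    rw [← hx, ← mul_smul, ← Subgroup.mem_center_iff.1 z.2 x, mul_smul, hz']
    simp
  have e := selfEquivOrbitsQuotientProd hfree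
  rw [Nat.card_congr e, Nat.card_prod]
  exact dvd_mul_left _ _

end Cfsg.Agent.Lib.Fixity
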