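import Cfsg.Agent.Lib.FongSwan2
import Cfsg.Agent.Lib.PSolvTools
import Cfsg.Agent.Lib.ClassProdPS
import Cfsg.Agent.Lib.H32PSolv
import Cfsg.Agent.Lib.H76Blk2
import Cfsg.Agent.Lib.CharApps

/-!
# Fong-Swan, part 3: character triples with `p'`-kernel; normal `p`-subgroups (helper74)
-/

set_option autoImplicit false
set_option linter.all false

namespace Cfsg.Agent.Lib.FongSwan

open scoped ComplexConjugate Pointwise
open Cfsg Cfsg.Agent.Lib.CharBasic Cfsg.Agent.Lib.Clifford Cfsg.Agent.Lib.CliffordCorr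
open Cfsg.Agent.Lib.CanonExt Cfsg.Agent.Lib.IndStages Cfsg.Agent.Lib.CharTriple
open Cfsg.Agent.Lib.ProjRep Cfsg.Agent.Lib.CliffordExt Cfsg.Agent.Lib.ScalarDeg Cfsg.Agent.Lib.DegRatio

universe u

attribute [local instance 5000] Fintype.ofFinite

section triple

variable {Γ : Type u} [Group Γ] [Finite Γ] {N : Subgroup Γ} [hN : N.Normal] {θ : N → ℂ}

theorem exists_triple_pprime {p : ℕ} [hp : Fact p.Prime] (hpN : ¬ p ∣ Nat.card N)
    (hθ : IsIrrCharacter N θ) (hinv : ∀ g : Γ, cj N g θ = θ) :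
    ∃ t : Triple N θ, ¬ p ∣ Nat.card t.π.ker := by
  obtain ⟨d, σ, hirr, hσ⟩ := exists_sigma hθ
  have hex : ∀ g : Γ, ∃ T : GLd d, (g, T) ∈ Gam σ := fun g => exists_mem_Gam hirr (by rw [hσ]; exact hinv) g
  have hd := d_ne_zero hirr
  let m : ℕ := Nat.card N
  have hm : m ≠ 0 := Nat.card_pos.ne'
  have hfin : Finite (Gfin σ m) := finite_Gfin hirr hm
  have hθ1 : θ 1 = d := by
    rw [← hσ, Representation.char_one]
    simp
  have hdN : d ∣ Nat.card N := CharApps.irr_degree_dvd_card hθ hθ1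
  let π : Gfin σ m →* Γ := pr σ m
  have hscal : ∀ x : Gfin σ m, π x = 1 → ∃ c : ℂˣ, ((x : Gam σ) : Γ × GLd d) = (1, sc d c) ∧ c ^ (d * m) = 1 := by
    rintro ⟨⟨⟨g, T⟩, hx⟩, hxV⟩ hg
    have hg' : g = 1 := hg
    subst hg'
    obtain ⟨c, hc⟩ := Gam_unique hirr (Subgroup.one_mem (Gam σ)) hx
    change T = sc d c * 1 at hc
    rw [mul_one] at hc
    subst hc
    refine ⟨c, rfl, ?_⟩
    have hdet' : detU d (sc d c) ^ m = 1 := hxV
    rw [detU_sc, ← pow_mul] at hdet'
    exact hdet'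
  let R : Representation ℂ (Gfin σ m) (Fin d → ℂ) :=
    (Units.coeHom _).comp ((MonoidHom.snd Γ (GLd d)).comp ((Gam σ).subtype.comp (Gfin σ m).subtype))
  let tr : GLd d → ℂ := fun T => LinearMap.trace ℂ (Fin d → ℂ) (T : (Fin d → ℂ) →ₗ[ℂ] (Fin d → ℂ))
  have htr : ∀ (c : ℂˣ) (T : GLd d), tr (sc d c * T) = (c : ℂ) * tr T := by
    intro c T
    show LinearMap.trace ℂ (Fin d → ℂ) ((sc d c * T : GLd d) : (Fin d → ℂ) →ₗ[ℂ] (Fin d → ℂ)) = _
    rw [Units.val_mul, sc_coe]
    have h3 : ((c : ℂ) • LinearMap.id * (T : (Fin d → ℂ) →ₗ[ℂ] (Fin d → ℂ))) =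
        (c : ℂ) • (T : (Fin d → ℂ) →ₗ[ℂ] (Fin d → ℂ)) := by
      rw [smul_mul_assoc]; rfl
    rw [h3, map_smul, smul_eq_mul]
  let ρ0 : Gfin σ m → ℂ := fun x => tr ((x : Gam σ) : Γ × GLd d).2
  have hρ0 : IsCharacter (Gfin σ m) ρ0 := isCharacter_of_rep R
  let lam0 : π.ker → ℂˣ := fun z => (hscal z z.2).choose
  have hlam0 : ∀ z : π.ker, (((z : Gfin σ m) : Gam σ) : Γ × GLd d) = (1, sc d (lam0 z)) :=
    fun z => (hscal z z.2).choose_spec.1
  have hmem : ∀ n : N, (⟨((n : Γ), σ n), hat_mem_Gam σ n⟩ : Gam σ) ∈ Gfin σ m := by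
    intro n
    rw [mem_Gfin]
    change detU d (σ n) ^ m = 1
    rw [← map_pow, ← map_pow, show m = Nat.card N from rfl, pow_card_eq_one', map_one, map_one]
  refine ⟨{
    Y := Gfin σ m
    grp := inferInstance
    fin := hfin
    π := π
    π_surj := pr_surjective hm hd hex
    j :=
      { toFun := fun n => ⟨⟨(n, σ n), hat_mem_Gam σ n⟩, hmem n⟩
        map_one' := by
          apply Subtype.ext; apply Subtype.ext
          show (((1 : N) : Γ), σ 1) = (1, 1)
          rw [map_one]; rfl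
        map_mul' := fun a b => by
          apply Subtype.ext; apply Subtype.ext
          show (((a * b : N) : Γ), σ (a * b)) = ((a : Γ) * b, σ a * σ b)
          rw [map_mul]; rfl }
    π_j := fun n => rfl
    j_norm := ?_
    central := ?_
    ρ := ρ0
    ρ_char := hρ0
    ρ_j := fun n => by rw [← hσ]; rfl
    lam :=
      { toFun := lam0
        map_one' := by
          apply sc_injective hd
          have := hlam0 1
          rw [map_one]
          exact (congrArg Prod.snd this).symm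
        map_mul' := fun a b => by
          apply sc_injective hd
          have h1 := congrArg Prod.snd (hlam0 (a * b))
          have h2 := congrArg Prod.snd (hlam0 a)
          have h3 := congrArg Prod.snd (hlam0 b)
          rw [map_mul]
          simp only at h1 h2 h3
          rw [← h1, ← h2, ← h3]
          rfl }
    ρ_mul := ?_ }, ?_⟩
  · constructor
    rintro _ ⟨n, rfl⟩ y
    refine ⟨MulAut.conjNormal (((y : Gam σ) : Γ × GLd d).1) n, ?_⟩
    apply Subtype.ext; apply Subtype.ext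
    exact eq_mul_inv_of_mul_eq (conj_hat (y : Gam σ).2 n).symm
  · intro z hz y
    obtain ⟨c, hc, -⟩ := hscal z hz
    apply Subtype.ext; apply Subtype.ext
    show ((z : Gam σ) : Γ × GLd d) * ((y : Gam σ) : Γ × GLd d) = ((y : Gam σ) : Γ × GLd d) * ((z : Gam σ) : Γ × GLd d)
    rw [hc]
    apply Prod.ext
    · simp
    · exact sc_comm c _
  · intro z y
    have h2 := congrArg Prod.snd (hlam0 z)
    have h1 : ((((z : Gfin σ m) * y : Gfin σ m) : Gam σ) : Γ × GLd d).2 = sc d (lam0 z) * ((y : Gam σ) : Γ × GLd d).2 :=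
      congrArg (fun T => T * ((y : Gam σ) : Γ × GLd d).2) h2
    exact (congrArg tr h1).trans (htr (lam0 z) _)
  · intro hdvd
    have hfk : Finite π.ker := inferInstance
    obtain ⟨z, hz⟩ := exists_prime_orderOf_dvd_card' (G := π.ker) p hdvd
    have h1 : z ^ (d * m) = 1 := by
      obtain ⟨c, hc, hc1⟩ := hscal z z.2
      apply Subtype.ext; apply Subtype.ext; apply Subtype.ext
      show (((z : Gfin σ m) : Gam σ) : Γ × GLd d) ^ (d * m) = (1, 1)
      rw [hc, Prod.pow_mk, one_pow, ← map_pow, hc1, map_one]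
    have h2 := orderOf_dvd_of_pow_eq_one h1
    rw [hz, hp.out.dvd_mul] at h2
    rcases h2 with h2 | h2
    · exact hpN (h2.trans hdN)
    · exact hpN h2

end triple

theorem card_mul_relIndex' {G : Type*} [Group G] {H K : Subgroup G} (h : H ≤ K) :
    Nat.card H * H.relIndex K = Nat.card K := by
  have h1 := (H.subgroupOf K).card_mul_index
  rwa [Nat.card_congr (Subgroup.subgroupOfEquivOfLe h).toEquiv] at h1

theorem relIndex_dvd_of_sup {G : Type*} [Group G] [Finite G] (H P : Subgroup G) [P.Normal] :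
    H.relIndex (H ⊔ P) ∣ Nat.card P := by
  have h1 : P.relIndex (H ⊔ P) = P.relIndex H := Subgroup.relIndex_sup_right _ _
  have h2 : Nat.card P * P.relIndex (H ⊔ P) = Nat.card ↥(H ⊔ P) := card_mul_relIndex' le_sup_right
  have h3 : Nat.card H * H.relIndex (H ⊔ P) = Nat.card ↥(H ⊔ P) := card_mul_relIndex' le_sup_left
  have h4 : Nat.card ↥(P ⊓ H) * (P ⊓ H).relIndex H = Nat.card H := card_mul_relIndex' inf_le_right
  rw [Subgroup.inf_relIndex_right] at h4
  have h5 : 0 < P.relIndex H := Nat.pos_of_ne_zero (by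
    have : (P.subgroupOf H).index ≠ 0 := Subgroup.index_ne_zero_of_finite
    exact this)
  refine ⟨Nat.card ↥(P ⊓ H), ?_⟩
  have h6 : Nat.card P * P.relIndex H = H.relIndex (H ⊔ P) * Nat.card ↥(P ⊓ H) * P.relIndex H := by
    rw [← h1, h2, ← h3, ← h4, h1]; ring
  exact Nat.eq_of_mul_eq_mul_right h5 h6

section pgroup

variable {G : Type u} [Group G] [Finite G] {p : ℕ} [hp : Fact p.Prime]

theorem central_mul {σ : G → ℂ} (hσ : IsIrrCharacter G σ) {z : G} (hz : z ∈ Subgroup.center G) :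
    ∃ w : ℂ, w * conj w = 1 ∧ ∀ y, σ (z * y) = w * σ y := by
  have hσ' := hσ
  obtain ⟨n, ρ, hρ, rfl⟩ := hσ
  have := hρ
  have hzc : ∀ x, z * x = x * z := fun x => (Subgroup.mem_center_iff.1 hz x).symm
  obtain ⟨w, hw⟩ := CharCentral.exists_scalar_of_commute ρ (ρ z) (by
    intro g v
    rw [← Module.End.mul_apply, ← Module.End.mul_apply, ← map_mul, ← map_mul, hzc])
  have hw' : ρ z = w • (1 : Module.End ℂ (Fin n → ℂ)) := hw
  have h1 : ∀ y, ρ.character (z * y) = w * ρ.character y := by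
    intro y
    simp only [Representation.character, map_mul]
    rw [hw', smul_mul_assoc, one_mul, map_smul, smul_eq_mul]
  refine ⟨w, ?_, h1⟩
  have h2 := h1 z⁻¹
  rw [mul_inv_cancel, hσ'.inv] at h2
  have h3 := h1 1
  rw [mul_one] at h3
  obtain ⟨m, hm0, hm⟩ := hσ'.exists_degree
  rw [h3, map_mul, hm, Complex.conj_natCast] at h2
  have h4 : (m : ℂ) ≠ 0 := by exact_mod_cast hm0.ne'
  apply mul_right_cancel₀ h4
  rw [one_mul]
  linear_combination -h2

/-- `p`-regular elements which are conjugate modulo a normal `p`-subgroup are conjugate -/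
theorem isConj_of_mk (hG : IsPSolvable p G) {P : Subgroup G} [hPn : P.Normal] (hP : IsPGroup p P) {x y : G}
    (hx : ¬ p ∣ orderOf x) (hy : ¬ p ∣ orderOf y) (h : IsConj (x : G ⧸ P) (y : G ⧸ P)) : IsConj x y := by
  -- reduce to equal images
  suffices key : ∀ x y : G, ¬ p ∣ orderOf x → ¬ p ∣ orderOf y → (x : G ⧸ P) = (y : G ⧸ P) → IsConj x y by
    rw [isConj_iff] at h
    obtain ⟨c, hc⟩ := h
    obtain ⟨g, rfl⟩ := QuotientGroup.mk_surjective c
    have h1 : IsConj x (g * x * g⁻¹) := isConj_iff.2 ⟨g, rfl⟩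
    refine h1.trans (key _ _ ?_ hy hc)
    have h2 : orderOf (g * x * g⁻¹) = orderOf x := by
      have := orderOf_injective (MulAut.conj g).toMonoidHom (MulAut.conj g).injective x
      simpa using this
    rw [h2]; exact hx
  intro x y hx hy hxy
  obtain ⟨X, hXdef⟩ : ∃ X : Subgroup G, X = Subgroup.zpowers x ⊔ P := ⟨_, rfl⟩
  have hX : IsPSolvable p X := H32PSolv.isPSolvable_subgroup hG X
  have hxX : x ∈ X := by rw [hXdef]; exact Subgroup.mem_sup_left (Subgroup.mem_zpowers x)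
  have hPX : P ≤ X := by rw [hXdef]; exact le_sup_right
  have hyX : y ∈ X := by
    have h1 : x⁻¹ * y ∈ P := QuotientGroup.eq.1 hxy
    have h2 := X.mul_mem hxX (hPX h1)
    rwa [mul_inv_cancel_left] at h2
  -- `⟨x⟩` is a Hall `p'`-subgroup of `X`
  have hHall : IsPiHall ({p} : Set ℕ)ᶜ ((Subgroup.zpowers x).subgroupOf X) := by
    rw [HallPi.isPiHall_iff]
    constructor
    · rw [PSolvTools.piNum_compl_iff hp.out, Nat.card_congr (Subgroup.subgroupOfEquivOfLe
        (Subgroup.zpowers_le.2 hxX)).toEquiv, Nat.card_zpowers]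
      exact hx
    · obtain ⟨k, hk⟩ := IsPGroup.iff_card.1 hP
      refine PSolvTools.piNum_compl_compl hp.out (k := k) ?_
      rw [← hk]
      show (Subgroup.zpowers x).relIndex X ∣ Nat.card P
      rw [hXdef]
      exact relIndex_dvd_of_sup _ _
  have hHy : HallPi.PiNum ({p} : Set ℕ)ᶜ (Nat.card ((Subgroup.zpowers y).subgroupOf X)) := by
    rw [PSolvTools.piNum_compl_iff hp.out, Nat.card_congr (Subgroup.subgroupOfEquivOfLe
      (Subgroup.zpowers_le.2 hyX)).toEquiv, Nat.card_zpowers]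
    exact hy
  have hsep := PSolvTools.sep hp.out hX ((Subgroup.zpowers y).subgroupOf X)
  obtain ⟨g, hg⟩ := HallPi.exists_conj_le_of_sep ((Subgroup.zpowers x).subgroupOf X)
    ((Subgroup.zpowers y).subgroupOf X) hHall hHy hsep
  have h1 : (⟨y, hyX⟩ : X) ∈ MulAut.conj g • (Subgroup.zpowers x).subgroupOf X :=
    hg (Subgroup.mem_subgroupOf.2 (Subgroup.mem_zpowers y))
  rw [Subgroup.mem_pointwise_smul_iff_inv_smul_mem] at h1
  have h2 : (g : G)⁻¹ * y * g ∈ Subgroup.zpowers x := by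
    have h3 := Subgroup.mem_subgroupOf.1 h1
    have h4 : (((MulAut.conj g)⁻¹ • (⟨y, hyX⟩ : X) : X) : G) = (g : G)⁻¹ * y * g := by
      rw [← map_inv, MulAut.smul_def, MulAut.conj_apply]
      simp
    rw [h4] at h3
    exact h3
  obtain ⟨k, hk⟩ := h2
  -- modulo `P` everything lies in `⟨x⟩`
  have h5 : ∀ w ∈ X, Commute (w : G ⧸ P) (x : G ⧸ P) := by
    intro w hw
    have h6 : X ≤ (Subgroup.centralizer {(x : G ⧸ P)}).comap (QuotientGroup.mk' P) := by
      rw [hXdef]
      refine sup_le ?_ ?_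
      · rw [Subgroup.zpowers_le, Subgroup.mem_comap, Subgroup.mem_centralizer_singleton_iff]
        rfl
      · intro u hu
        rw [Subgroup.mem_comap, (QuotientGroup.eq_one_iff u).2 hu |> (fun h => (h : QuotientGroup.mk' P u = 1))]
        exact one_mem _
    have h7 := h6 hw
    rw [Subgroup.mem_comap, Subgroup.mem_centralizer_singleton_iff] at h7
    exact h7
  have h6 : ((x ^ k : G) : G ⧸ P) = (x : G ⧸ P) := by
    have h7 : ((x ^ k : G) : G ⧸ P) = (g : G ⧸ P)⁻¹ * (y : G ⧸ P) * (g : G ⧸ P) := by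
      have h8 : x ^ k = (g : G)⁻¹ * y * g := hk
      rw [h8]; rfl
    rw [h7, ← hxy, mul_assoc, ← (h5 g g.2).eq, inv_mul_cancel_left]
  have h7 : x ^ k = x := by
    have h8 : x⁻¹ * x ^ k ∈ P := QuotientGroup.eq.1 h6.symm
    have h9 : x⁻¹ * x ^ k = x ^ (k - 1) := by
      rw [zpow_sub_one]
      exact (Commute.refl x).inv_left.zpow_right k |>.eq
    obtain ⟨n, hn⟩ := hP ⟨_, h8⟩
    have hn' : (x⁻¹ * x ^ k) ^ p ^ n = 1 := congrArg Subtype.val hn
    have h10 : orderOf (x⁻¹ * x ^ k) ∣ orderOf x := by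
      rw [h9]
      apply orderOf_dvd_of_pow_eq_one
      rw [← zpow_natCast, ← zpow_mul, mul_comm, zpow_mul, zpow_natCast, pow_orderOf_eq_one, one_zpow]
    have h11 : orderOf (x⁻¹ * x ^ k) = 1 := by
      refine Nat.eq_one_of_dvd_coprimes ?_ (orderOf_dvd_of_pow_eq_one hn') h10
      exact Nat.Coprime.pow_left _ ((Nat.Prime.coprime_iff_not_dvd hp.out).2 hx)
    rw [orderOf_eq_one_iff] at h11
    rw [← mul_right_inj x⁻¹, h11, inv_mul_cancel]
  refine isConj_iff.2 ⟨g, ?_⟩
  have h8 : x = (g : G)⁻¹ * y * g := by rw [← h7]; exact hk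
  rw [h8]; group

end pgroup

end Cfsg.Agent.Lib.FongSwan
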