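import Cfsg.Agent.Lib.NormInv
import Cfsg.Agent.Lib.SympBasis

set_option autoImplicit false
set_option linter.unusedSectionVars false

/-! Equivalence of invariant bilinear forms of an isometry without eigenvalues `±1` (helper43). -/

namespace Cfsg.Agent.Lib.FormConj

open Module

universe u v

variable {F : Type u} [Field F] {V : Type v} [AddCommGroup V] [Module F V] [FiniteDimensional F V]

theorem nd (B : V →ₗ[F] V →ₗ[F] F) (hnd : ∀ x, (∀ y, B x y = 0) → x = 0) : (B : LinearMap.BilinForm F V).Nondegenerate := by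
  apply (LinearMap.BilinForm.nondegenerate_iff_ker_eq_bot (B := B)).mpr
  rw [LinearMap.ker_eq_bot']
  intro x hx
  exact hnd x fun y => by rw [hx]; rfl

/-- the map `h` with `B (h x) y = B' x y` -/
noncomputable def rep (B : V →ₗ[F] V →ₗ[F] F) (hnd : ∀ x, (∀ y, B x y = 0) → x = 0) (B' : V →ₗ[F] V →ₗ[F] F) : V →ₗ[F] V :=
  (LinearMap.BilinForm.toDual B (nd B hnd)).symm.toLinearMap ∘ₗ B'

theorem rep_apply (B : V →ₗ[F] V →ₗ[F] F) (hnd : ∀ x, (∀ y, B x y = 0) → x = 0) (B' : V →ₗ[F] V →ₗ[F] F) (x y : V) :
    B (rep B hnd B' x) y = B' x y := by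
  have := LinearMap.BilinForm.apply_toDual_symm_apply (B := B) (hB := nd B hnd) (B' x) y
  exact this

/-- the adjoint -/
noncomputable def st (B : V →ₗ[F] V →ₗ[F] F) (hnd : ∀ x, (∀ y, B x y = 0) → x = 0) (φ : Module.End F V) : Module.End F V :=
  rep B hnd (B.compl₂ φ)

theorem st_apply (B : V →ₗ[F] V →ₗ[F] F) (hnd : ∀ x, (∀ y, B x y = 0) → x = 0) (φ : Module.End F V) (x y : V) :
    B (st B hnd φ x) y = B x (φ y) := rep_apply B hnd _ x y

section

variable (B : V →ₗ[F] V →ₗ[F] F) (hnd : ∀ x, (∀ y, B x y = 0) → x = 0)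

include hnd in
theorem ext_of {a b : V} (h : ∀ y, B a y = B b y) : a = b := by
  rw [← sub_eq_zero]
  apply hnd
  intro y
  rw [map_sub, LinearMap.sub_apply, h, sub_self]

theorem st_eq_of {φ ψ : Module.End F V} (h : ∀ x y, B (ψ x) y = B x (φ y)) : st B hnd φ = ψ := by
  refine LinearMap.ext fun x => ext_of B hnd fun y => ?_
  rw [st_apply, h]

theorem st_add (φ ψ : Module.End F V) : st B hnd (φ + ψ) = st B hnd φ + st B hnd ψ := by
  apply st_eq_of
  intro x y
  rw [LinearMap.add_apply, map_add, LinearMap.add_apply, st_apply, st_apply, LinearMap.add_apply, map_add]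

theorem st_mul (φ ψ : Module.End F V) : st B hnd (φ * ψ) = st B hnd ψ * st B hnd φ := by
  apply st_eq_of
  intro x y
  rw [Module.End.mul_apply, st_apply, st_apply, Module.End.mul_apply]

theorem st_one : st B hnd 1 = 1 := by
  apply st_eq_of
  intro x y
  rfl

theorem st_algebraMap (c : F) : st B hnd (algebraMap F (Module.End F V) c) = algebraMap F (Module.End F V) c := by
  apply st_eq_of
  intro x y
  rw [Module.algebraMap_end_apply, Module.algebraMap_end_apply, map_smul, LinearMap.smul_apply, map_smul]

theorem st_st (ε : F) (hε : ε * ε = 1) (hsym : ∀ x y, B y x = ε * B x y) (φ : Module.End F V) : st B hnd (st B hnd φ) = φ := by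
  apply st_eq_of
  intro x y
  rw [hsym (st B hnd φ y) x, st_apply, hsym (φ x) y, ← mul_assoc, hε, one_mul]

end

/-- Two invariant forms for an isometry `f` such that `f² - 1` is invertible are equivalent by a map commuting with `f`. -/
theorem exists_of_no_eigenvalue [Finite F] (B B' : V →ₗ[F] V →ₗ[F] F) (hnd : ∀ x, (∀ y, B x y = 0) → x = 0)
    (hnd' : ∀ x, (∀ y, B' x y = 0) → x = 0) (ε : F) (hε : ε * ε = 1) (hsym : ∀ x y, B y x = ε * B x y) (hsym' : ∀ x y, B' y x = ε * B' x y)
    (f : Module.End F V) (hf : ∀ x y, B (f x) (f y) = B x y) (hf' : ∀ x y, B' (f x) (f y) = B' x y)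
    (hinj : ∀ x, f (f x) = x → x = 0) :
    ∃ c : Module.End F V, (∀ x y, B (c x) (c y) = B' x y) ∧ (∀ x, c (f x) = f (c x)) := by
  have hfin : Finite V := Module.finite_of_finite F
  have hfinE : Finite (Module.End F V) := Module.finite_of_finite F
  have hfi : Function.Injective f := by
    rw [injective_iff_map_eq_zero]
    intro x hx
    apply hnd
    intro y
    rw [← hf, hx, map_zero, LinearMap.zero_apply]
  have hfs : Function.Surjective f := LinearMap.injective_iff_surjective.mp hfi
  let e : V ≃ₗ[F] V := LinearEquiv.ofBijective f ⟨hfi, hfs⟩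
  let fi : Module.End F V := e.symm.toLinearMap
  have hffi : ∀ x, f (fi x) = x := fun x => e.apply_symm_apply x
  have hfif : ∀ x, fi (f x) = x := fun x => e.symm_apply_apply x
  let h := rep B hnd B'
  have hh : ∀ x y, B (h x) y = B' x y := rep_apply B hnd B'
  have hcomm : ∀ x, h (f x) = f (h x) := by
    intro x
    apply ext_of B hnd
    intro y
    obtain ⟨y, rfl⟩ := hfs y
    rw [hh, hf', hf, hh]
  have hcommi : ∀ x, h (fi x) = fi (h x) := by
    intro x
    apply hfi
    rw [hffi, ← hcomm, hffi]
  have hsth : st B hnd h = h := by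
    apply st_eq_of
    intro x y
    rw [hsym (h y) x, hh, hh, ← hsym']
  have hstf : st B hnd f = fi := by
    apply st_eq_of
    intro x y
    rw [← hf, hffi]
  have hstfi : st B hnd fi = f := by
    apply st_eq_of
    intro x y
    rw [← hf x (fi y), hffi]
  have hhu : IsUnit h := by
    rw [Module.End.isUnit_iff]
    have h1 : Function.Injective h := by
      rw [injective_iff_map_eq_zero]
      intro x hx
      apply hnd'
      intro y
      rw [← hh, hx, map_zero, LinearMap.zero_apply]
    exact ⟨h1, LinearMap.injective_iff_surjective.mp h1⟩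
  have hau : IsUnit (f - st B hnd f) := by
    rw [hstf, Module.End.isUnit_iff]
    have h1 : Function.Injective (f - fi) := by
      rw [injective_iff_map_eq_zero]
      intro x hx
      apply hinj
      rw [LinearMap.sub_apply, sub_eq_zero] at hx
      rw [hx, hffi]
    exact ⟨h1, LinearMap.injective_iff_surjective.mp h1⟩
  let s : Set (Module.End F V) := {f, fi, h}
  have hs : ∀ x ∈ s, ∀ y ∈ s, x * y = y * x := by
    intro x hx y hy
    rcases hx with rfl | rfl | rfl <;> rcases hy with rfl | rfl | rfl
    · rfl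
    · refine LinearMap.ext fun x => ?_
      rw [Module.End.mul_apply, Module.End.mul_apply, hffi, hfif]
    · refine LinearMap.ext fun x => ?_
      rw [Module.End.mul_apply, Module.End.mul_apply, hcomm]
    · refine LinearMap.ext fun x => ?_
      rw [Module.End.mul_apply, Module.End.mul_apply, hffi, hfif]
    · rfl
    · refine LinearMap.ext fun x => ?_
      rw [Module.End.mul_apply, Module.End.mul_apply, hcommi]
    · refine LinearMap.ext fun x => ?_
      rw [Module.End.mul_apply, Module.End.mul_apply, hcomm]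
    · refine LinearMap.ext fun x => ?_
      rw [Module.End.mul_apply, Module.End.mul_apply, hcommi]
    · rfl
  obtain ⟨c, hcmem, hcu, hcc⟩ := NormInv.exists_norm_eq_adjoin (F := F) (R := Module.End F V) id (st B hnd) (st_add B hnd) (st_mul B hnd)
    (st_one B hnd) (st_st B hnd ε hε hsym) (st_algebraMap B hnd) s hs (by
      intro x hx
      rcases hx with rfl | rfl | rfl
      · rw [hstf]; exact Or.inr (Or.inl rfl)
      · rw [hstfi]; exact Or.inl rfl
      · rw [hsth]; exact Or.inr (Or.inr rfl)) f (Algebra.subset_adjoin (Or.inl rfl)) hau h (Algebra.subset_adjoin (Or.inr (Or.inr rfl))) hhu hsth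
  refine ⟨st B hnd c, ?_, ?_⟩
  · intro x y
    rw [← hh, ← hcc, Module.End.mul_apply]
    have := st_apply B hnd (st B hnd c) (st B hnd c x) y
    rw [st_st B hnd ε hε hsym] at this
    exact this.symm
  · have h1 : c * fi = fi * c := by
      have := Algebra.isMulCommutative_adjoin F hs
      exact congrArg Subtype.val (mul_comm' (⟨c, hcmem⟩ : Algebra.adjoin F s) ⟨fi, Algebra.subset_adjoin (Or.inr (Or.inl rfl))⟩)
    have h2 := congrArg (st B hnd) h1
    rw [st_mul, st_mul, hstfi] at h2
    intro x
    exact (LinearMap.congr_fun h2 x).symm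

end Cfsg.Agent.Lib.FormConj
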