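import Cfsg.Agent.Lib.PSpBal

set_option autoImplicit false

/-!
# Local balance for symplectic socles, II (helper45)
-/

namespace Cfsg.Agent.Lib.PSpAut

open Matrix Cfsg
open Cfsg.Agent.Lib.ClIso Cfsg.Agent.Lib.ClSymp Cfsg.Agent.Lib.ClSymp2

variable {F : Type*} [Field F] {m : ℕ}

theorem subH_le (hm : 2 ≤ m) {F₀ : Type*} [Field F₀] {ι : F₀ →+* F} {σ : F ≃+* F} {r : ℕ} (hr : orderOf σ = r)
    (h0 : 0 < r) (hι : ∀ x, σ x = x ↔ ∃ y, ι y = x) :
    (subH (m := m) ι).range ≤ Inn (PSp m F) ⊓ Subgroup.centralizer {fd σ} := by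
  rintro _ ⟨s, rfl⟩
  rw [Subgroup.mem_inf, Subgroup.mem_centralizer_singleton_iff]
  refine ⟨?_, ?_⟩
  · obtain ⟨t, ht⟩ := exists_SG_miG (by omega) ι s
    exact ⟨QuotientGroup.mk t, by rw [← dg_toGSp, ht, subH_apply]⟩
  · rw [subH_apply, commute_fd_iff hm hr h0 hι]
    exact ⟨1, toGSp s, by rw [sc_one, one_mul]⟩

theorem exists_form (hm : 2 ≤ m) {F₀ : Type*} [Field F₀] {ι : F₀ →+* F} {σ : F ≃+* F} {r : ℕ} (hr : orderOf σ = r)
    (h0 : 0 < r) (hι : ∀ x, σ x = x ↔ ∃ y, ι y = x) {c : MulAut (PSp m F)}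
    (hc : c ∈ Inn (PSp m F) ⊓ Subgroup.centralizer {fd σ}) : ∃ g₀ : GSp m F₀, c = dg (miG ι g₀) := by
  obtain ⟨h1, h2⟩ := Subgroup.mem_inf.1 hc
  have h3 := inn_le_inndiag h1
  rw [inndiag_eq] at h3
  obtain ⟨g, rfl⟩ := h3
  rw [Subgroup.mem_centralizer_singleton_iff, commute_fd_iff hm hr h0 hι] at h2
  obtain ⟨b, g₀, rfl⟩ := h2
  exact ⟨g₀, by rw [map_mul, dg_sc, one_mul]⟩

theorem subH_normal (hm : 2 ≤ m) {F₀ : Type*} [Field F₀] {ι : F₀ →+* F} {σ : F ≃+* F} {r : ℕ} (hr : orderOf σ = r)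
    (h0 : 0 < r) (hι : ∀ x, σ x = x ↔ ∃ y, ι y = x) {c : MulAut (PSp m F)}
    (hc : c ∈ Inn (PSp m F) ⊓ Subgroup.centralizer {fd σ}) {s : MulAut (PSp m F)} (hs : s ∈ (subH (m := m) ι).range) :
    c * s * c⁻¹ ∈ (subH (m := m) ι).range := by
  obtain ⟨g₀, rfl⟩ := exists_form hm hr h0 hι hc
  obtain ⟨s, rfl⟩ := hs
  have hm1 : 1 ≤ m := by omega
  obtain ⟨t, ht⟩ : ∃ t : SG m F₀, toGSp t = g₀ * toGSp s * g₀⁻¹ := by
    apply exists_toGSp
    have h1 : muF (g₀ * toGSp s * g₀⁻¹) = muH hm1 (g₀ * toGSp s * g₀⁻¹) := rfl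
    rw [h1, map_mul, map_mul, map_inv]
    show muF g₀ * muF (toGSp s) * (muF g₀)⁻¹ = 1
    rw [muF_toGSp hm1, mul_one, mul_inv_cancel]
  exact ⟨t, by rw [subH_apply, subH_apply, ht, map_mul, map_mul, map_mul, map_mul, map_inv, map_inv]⟩

theorem sq_mem_subH (hm : 2 ≤ m) {F₀ : Type*} [Field F₀] {ι : F₀ →+* F} {σ : F ≃+* F} {r : ℕ} (hr : orderOf σ = r)
    (h0 : 0 < r) (hι : ∀ x, σ x = x ↔ ∃ y, ι y = x) {c : MulAut (PSp m F)}
    (hc : c ∈ Inn (PSp m F) ⊓ Subgroup.centralizer {fd σ}) : c ^ 2 ∈ (subH (m := m) ι).range := by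
  obtain ⟨g₀, rfl⟩ := exists_form hm hr h0 hι hc
  have hm1 : 1 ≤ m := by omega
  obtain ⟨t, ht⟩ : ∃ t : SG m F₀, toGSp t = sc (muF g₀)⁻¹ * g₀ ^ 2 := by
    apply exists_toGSp
    have h1 : muF (sc (muF g₀)⁻¹ * g₀ ^ 2) = muH hm1 (sc (muF g₀)⁻¹ * g₀ ^ 2) := rfl
    rw [h1, map_mul, map_pow]
    show muF (sc (muF g₀)⁻¹ : GSp m F₀) * muF g₀ ^ 2 = 1
    rw [muF_sc hm1, inv_pow, inv_mul_cancel]
  exact ⟨t, by rw [subH_apply, ht, map_mul, map_mul, miG_sc, dg_sc, one_mul, map_pow, map_pow]⟩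

/-- an involution in `PSp(F₀)` when the characteristic is odd. -/
theorem exists_invol_subH (hm : 2 ≤ m) {F₀ : Type*} [Field F₀] (ι : F₀ →+* F) (h2 : (2 : F₀) ≠ 0) :
    ∃ s ∈ (subH (m := m) ι).range, orderOf s = 2 := by
  classical
  let z : Fin m := ⟨0, by omega⟩
  obtain ⟨s, hs1, hs2⟩ := exists_SG' (F := F₀) (m := m) (fun i => if i = z then - e i else e i) (fun i => if i = z then - f i else f i)
    (by
      intro i j
      by_cases hi : i = z <;> by_cases hj : j = z <;> simp only [hi, hj, if_true, if_false] <;>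
        simp [B_neg_left, B_neg_right, B_ee])
    (by
      intro i j
      by_cases hi : i = z <;> by_cases hj : j = z <;> simp only [hi, hj, if_true, if_false] <;>
        simp [B_neg_left, B_neg_right, B_ff])
    (by
      intro i j hij
      have h1 : B (e i : Fin m ⊕ Fin m → F₀) (f j) = 0 := by rw [B_ef, if_neg hij]
      by_cases hi : i = z <;> by_cases hj : j = z
      · exact absurd (hi.trans hj.symm) hij
      · simp only [if_pos hi, if_neg hj, B_neg_left, h1, neg_zero]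
      · simp only [if_neg hi, if_pos hj, B_neg_right, h1, neg_zero]
      · simp only [if_neg hi, if_neg hj, h1])
    (by
      intro i
      have h1 : B (e i : Fin m ⊕ Fin m → F₀) (f i) = -1 := by rw [B_ef, if_pos rfl]
      by_cases hi : i = z
      · simp only [if_pos hi, B_neg_left, B_neg_right, h1, neg_neg]
      · simp only [if_neg hi, h1])
  have hss : s * s = 1 := by
    apply Subtype.ext
    apply Matrix.ext_of_mulVec_single
    intro k
    rw [S_mul_mulVec]
    have he : ∀ i, s.1 *ᵥ (s.1 *ᵥ (e i)) = e i := by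
      intro i
      rw [hs1]
      by_cases hi : i = z
      · simp only [if_pos hi]
        rw [Matrix.mulVec_neg, hs1, if_pos hi, neg_neg]
      · simp only [if_neg hi]
        rw [hs1, if_neg hi]
    have hf : ∀ i, s.1 *ᵥ (s.1 *ᵥ (f i)) = f i := by
      intro i
      rw [hs2]
      by_cases hi : i = z
      · simp only [if_pos hi]
        rw [Matrix.mulVec_neg, hs2, if_pos hi, neg_neg]
      · simp only [if_neg hi]
        rw [hs2, if_neg hi]
    rcases k with k | k
    · exact (he k).trans (Matrix.one_mulVec _).symm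
    · exact (hf k).trans (Matrix.one_mulVec _).symm
  refine ⟨subH ι s, ⟨s, rfl⟩, ?_⟩
  apply orderOf_eq_prime
  · rw [pow_two, ← map_mul, hss, map_one]
  · intro h1
    obtain ⟨c, hc⟩ := (mem_center_iff' s).1 (subH_eq_one hm ι h1)
    have e1 := hc (e z)
    rw [hs1, if_pos rfl] at e1
    have e2 := hc (e ⟨1, by omega⟩)
    rw [hs1, if_neg (by simp [z])] at e2
    have e3 := congrFun e1 (Sum.inl z)
    have e4 := congrFun e2 (Sum.inl ⟨1, by omega⟩)
    simp only [Pi.neg_apply, Pi.smul_apply, e_inl, if_true, smul_eq_mul, mul_one] at e3 e4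
    apply h2
    rw [← e4] at e3
    linear_combination -e3

theorem coprime_of_coprime (hm : 2 ≤ m) [Finite F] {F₀ : Type*} [Field F₀] {ι : F₀ →+* F} {σ : F ≃+* F} {r : ℕ} (hr : orderOf σ = r)
    (h0 : 0 < r) (hι : ∀ x, σ x = x ↔ ∃ y, ι y = x) {p : ℕ} (hp : p.Prime) (hp2 : p = 2 → (2 : F₀) ≠ 0)
    (h : (Nat.card (subH (m := m) ι).range).Coprime p) :
    (Nat.card ↥(Inn (PSp m F) ⊓ Subgroup.centralizer {fd σ})).Coprime p := by
  rw [Nat.coprime_comm, hp.coprime_iff_not_dvd] at h ⊢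
  intro hdvd
  have : Fact p.Prime := ⟨hp⟩
  have hfinP : Finite (PSp m F) := by unfold PSp; infer_instance
  obtain ⟨⟨c, hc⟩, hcp⟩ := exists_prime_orderOf_dvd_card' p hdvd
  rw [Subgroup.orderOf_mk] at hcp
  apply h
  by_cases hp' : p = 2
  · obtain ⟨s, hs, hs2⟩ := exists_invol_subH hm ι (hp2 hp')
    rw [hp', ← hs2]
    have := orderOf_dvd_natCard (⟨s, hs⟩ : (subH (m := m) ι).range)
    rwa [Subgroup.orderOf_mk] at this
  · have h1 : c ^ 2 ∈ (subH (m := m) ι).range := sq_mem_subH hm hr h0 hι hc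
    have hodd : Odd p := hp.odd_of_ne_two hp'
    obtain ⟨k, hk⟩ := hodd
    have h2 : c ∈ (subH (m := m) ι).range := by
      have h3 : (c ^ 2) ^ (k + 1) = c := by
        rw [← pow_mul, show 2 * (k + 1) = p + 1 by omega, pow_succ, ← hcp, pow_orderOf_eq_one, one_mul]
      rw [← h3]; exact Subgroup.pow_mem _ h1 _
    have := orderOf_dvd_natCard (⟨c, h2⟩ : (subH (m := m) ι).range)
    rw [Subgroup.orderOf_mk, hcp] at this
    exact this

/-- normal subgroups of `PSp(F₀)` inside the automorphism group. -/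
theorem normal_sub (hm : 2 ≤ m) [Finite F] {F₀ : Type*} [Field F₀] [Fintype F₀] (ι : F₀ →+* F) {p : ℕ} (hp : p.Prime)
    {N : Subgroup (MulAut (PSp m F))} (hN : N ≤ (subH (m := m) ι).range)
    (hn : ∀ s ∈ (subH (m := m) ι).range, ∀ n ∈ N, s * n * s⁻¹ ∈ N) (hN1 : N ≠ ⊥) (hc : (Nat.card N).Coprime p) :
    (Nat.card (subH (m := m) ι).range).Coprime p := by
  have hfinP : Finite (PSp m F) := by unfold PSp; infer_instance
  have hnorm : (N.comap (subH (m := m) ι)).Normal := by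
    constructor
    intro n hn' g
    rw [Subgroup.mem_comap] at hn' ⊢
    rw [map_mul, map_mul, map_inv]
    exact hn _ ⟨g, rfl⟩ _ hn'
  have hne : ∃ s : SG m F₀, s ∈ N.comap (subH (m := m) ι) ∧ subH (m := m) ι s ≠ 1 := by
    by_contra hcon
    push Not at hcon
    apply hN1
    rw [eq_bot_iff]
    intro n hn'
    obtain ⟨s, rfl⟩ := hN hn'
    exact Subgroup.mem_bot.2 (hcon s hn')
  by_cases hs : m = 2 → 3 ≤ Fintype.card F₀
  · have hsimple : IsSimpleGroup (PSp m F₀) := S0270.result m hm hs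
    have hn2 : ((N.comap (subH (m := m) ι)).map (QuotientGroup.mk' (Subgroup.center (SG m F₀)))).Normal :=
      hnorm.map _ (QuotientGroup.mk'_surjective _)
    rcases hn2.eq_bot_or_eq_top with hb | ht
    · exfalso
      obtain ⟨s, hs1, hs2⟩ := hne
      apply hs2
      apply subH_center (by omega)
      rw [← QuotientGroup.eq_one_iff]
      have : (QuotientGroup.mk s : PSp m F₀) ∈ ((N.comap (subH (m := m) ι)).map (QuotientGroup.mk' (Subgroup.center (SG m F₀)))) :=
        ⟨s, hs1, rfl⟩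
      rw [hb] at this
      exact this
    · have : N = (subH (m := m) ι).range := by
        refine le_antisymm hN ?_
        rintro _ ⟨s, rfl⟩
        have h1 : (QuotientGroup.mk s : PSp m F₀) ∈ ((N.comap (subH (m := m) ι)).map (QuotientGroup.mk' (Subgroup.center (SG m F₀)))) := by
          rw [ht]; trivial
        obtain ⟨t, ht1, ht2⟩ := h1
        have h2 : t⁻¹ * s ∈ Subgroup.center (SG m F₀) := QuotientGroup.eq.1 ht2
        have h3 := subH_center (m := m) (by omega) ι h2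
        rw [map_mul, map_inv, inv_mul_eq_one] at h3
        rw [← h3]; exact ht1
      rw [← this]; exact hc
  · push Not at hs
    obtain ⟨rfl, hcard⟩ := hs
    have hcard2 : Fintype.card F₀ = 2 := by
      have := Fintype.one_lt_card (α := F₀); omega
    have h20 : (2 : F₀) = 0 := by
      have h3 : ((Fintype.card F₀ : ℕ) : F₀) = 0 := Nat.cast_card_eq_zero F₀
      rw [hcard2] at h3; exact_mod_cast h3
    obtain ⟨e⟩ := S0247.result hcard2
    have hinj : Function.Injective (subH (m := 2) ι) := by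
      rw [injective_iff_map_eq_one]
      intro s hs
      have h1 := subH_eq_one (m := 2) (by omega) ι hs
      rw [← QuotientGroup.eq_one_iff] at h1
      exact center_eq_bot_of_two (by omega) h20 h1
    obtain ⟨s, hs1, hs2⟩ := hne
    have hM : ((N.comap (subH (m := 2) ι)).map e.toMonoidHom).Normal := hnorm.map _ e.surjective
    have hMne : (N.comap (subH (m := 2) ι)).map e.toMonoidHom ≠ ⊥ := by
      intro hb
      apply hs2
      have : e s ∈ ((N.comap (subH (m := 2) ι)).map e.toMonoidHom) := ⟨s, hs1, rfl⟩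
      rw [hb, Subgroup.mem_bot] at this
      rw [(map_eq_one_iff e e.injective).1 this, map_one]
    have hA : alternatingGroup (Fin 6) ≤ (N.comap (subH (m := 2) ι)).map e.toMonoidHom :=
      Equiv.Perm.alternatingGroup_le_of_normal (by simp) ((Subgroup.nontrivial_iff_ne_bot _).2 hMne)
    have h360 : 360 ∣ Nat.card N := by
      have h1 : Nat.card (alternatingGroup (Fin 6)) = 360 := by
        rw [nat_card_alternatingGroup]
        simp [Nat.factorial]
      have h2 : Nat.card ((N.comap (subH (m := 2) ι)).map e.toMonoidHom) = Nat.card (N.comap (subH (m := 2) ι)) :=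
        (Nat.card_congr (Subgroup.equivMapOfInjective _ _ e.injective).toEquiv).symm
      have h3 : (N.comap (subH (m := 2) ι)).map (subH (m := 2) ι) = N := by
        rw [Subgroup.map_comap_eq, inf_eq_right.2 hN]
      have h4 : Nat.card N = Nat.card (N.comap (subH (m := 2) ι)) := by
        conv_lhs => rw [← h3]
        exact (Nat.card_congr (Subgroup.equivMapOfInjective _ _ hinj).toEquiv).symm
      rw [h4, ← h2, ← h1]
      exact Subgroup.card_dvd_of_le hA
    have h720 : Nat.card (subH (m := 2) ι).range = 720 := by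
      rw [← Nat.card_congr (MonoidHom.ofInjective hinj).toEquiv, Nat.card_congr e.toEquiv, Nat.card_perm]
      simp [Nat.factorial]
    rw [h720]
    rw [Nat.coprime_comm, hp.coprime_iff_not_dvd] at hc ⊢
    intro hd
    apply hc
    refine dvd_trans ?_ h360
    have : p ∣ 2 * 360 := hd
    rcases hp.dvd_mul.1 this with h | h
    · exact h.trans (by norm_num)
    · exact h

/-- local balance at a standard field automorphism, up to conjugacy. -/
theorem local_balance_fd [Fintype F] (hm : 2 ≤ m) {r : ℕ} [CharP F r] {p : ℕ} (hp : p.Prime) (hpr : p ≠ r)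
    {σ : F ≃+* F} (hσ : orderOf σ = p) (A : Subgroup (MulAut (PSp m F))) (hA : Inn (PSp m F) ≤ A)
    {x : MulAut (PSp m F)} (α : MulAut (PSp m F)) (hx : x = α * fd σ * α⁻¹) :
    pPrimeCore p ↥(A ⊓ Subgroup.centralizer {x}) ≠ ⊥ ↔
      (Nat.card ↥(Inn (PSp m F) ⊓ Subgroup.centralizer {x})).Coprime p := by
  have hfinP : Finite (PSp m F) := by unfold PSp; infer_instance
  have hfinA : Finite (MulAut (PSp m F)) := by
    apply Finite.of_injective (fun α : MulAut (PSp m F) => (α : PSp m F → PSp m F))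
    exact DFunLike.coe_injective
  let _ : Fintype (FFAut.fixed σ) := Fintype.ofFinite _
  have hι := FFAut.fixed_iff σ
  have hp0 := hp.pos
  refine LBal.local_balance_conj (S := (subH (m := m) (FFAut.fixed σ).subtype).range) LBal.inn_normal hA α hx
    (subH_le hm hσ hp0 hι) (fun c hc s hs => subH_normal hm hσ hp0 hι hc hs) ?_ ?_ ?_
  · intro hb
    have h1 : subH (m := m) (FFAut.fixed σ).subtype (tM 1 (e ⟨0, by omega⟩)) = 1 := by
      have : subH (m := m) (FFAut.fixed σ).subtype (tM 1 (e ⟨0, by omega⟩)) ∈ (subH (m := m) (FFAut.fixed σ).subtype).range :=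
        ⟨_, rfl⟩
      rw [hb, Subgroup.mem_bot] at this
      exact this
    have h2 := subH_eq_one hm _ h1
    rw [← QuotientGroup.eq_one_iff] at h2
    exact tb_ne_one hm (one_ne_zero) (e_ne _) h2
  · intro N hN hn hN1 hc
    refine coprime_of_coprime hm hσ hp0 hι hp ?_ (normal_sub hm _ hp hN hn hN1 hc)
    intro h2 h20
    apply hpr
    rw [h2]
    have h3 : ((2 : ℕ) : F) = 0 := by
      have h7 : (FFAut.fixed σ).subtype 2 = (FFAut.fixed σ).subtype 0 := congrArg _ h20
      rw [map_ofNat, map_zero] at h7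
      rw [← h7]; norm_num
    have h4 := (CharP.cast_eq_zero_iff F r 2).1 h3
    rcases (Nat.dvd_prime Nat.prime_two).1 h4 with h5 | h5
    · exact absurd h5 (CharP.char_ne_one F r)
    · exact h5.symm
  · intro g hg
    refine ⟨1, ?_⟩
    rw [pow_one]
    exact cent_subH hm hσ hι (fun s => hg _ ⟨s, rfl⟩)

/-- an automorphism of prime order different from the characteristic, not inner-diagonal, is conjugate to a standard
field automorphism -/
theorem exists_conj_std [Fintype F] (hm : 2 ≤ m) {r : ℕ} [CharP F r] {p : ℕ} (hp : p.Prime) (hpr : p ≠ r)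
    {x : MulAut (PSp m F)} (hx : orderOf x = p) (hnot : x ∉ inndiagPSp m F) :
    ∃ (σ : F ≃+* F) (α : MulAut (PSp m F)), orderOf σ = p ∧ x = α * fd σ * α⁻¹ := by
  have hmain : ∀ (g : GSp m F) (τ : F ≃+* F), x = dg g * fd τ →
      ∃ (σ : F ≃+* F) (α : MulAut (PSp m F)), orderOf σ = p ∧ x = α * fd σ * α⁻¹ := by
    intro g τ hgτ
    have h1 : (dg g * fd τ) ^ p = 1 := by rw [← hgτ, ← hx, pow_orderOf_eq_one]
    have h2 : τ ^ p = 1 := by
      rw [dg_fd_pow] at h1
      exact (dg_fd_eq_one hm h1).1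
    have h3 : τ ≠ 1 := by
      rintro rfl
      apply hnot
      rw [hgτ, map_one, mul_one, inndiag_eq]
      exact ⟨g, rfl⟩
    have h4 : orderOf τ = p := by
      have : Fact p.Prime := ⟨hp⟩
      exact orderOf_eq_prime h2 h3
    obtain ⟨h, hh⟩ := exists_conj_fd hm h4 hp.pos g h1
    exact ⟨τ, dg h, h4, by rw [hgτ, hh]⟩
  by_cases h4 : m = 2 → (2 : F) ≠ 0
  · obtain ⟨g, τ, h⟩ := aut_psp hm h4 x
    exact hmain g τ h
  · push Not at h4
    obtain ⟨rfl, h2⟩ := h4
    have : CharP F 2 := CharTwo.of_one_ne_zero_of_two_eq_zero one_ne_zero h2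
    have hr2 : r = 2 := CharP.eq F ‹CharP F r› ‹CharP F 2›
    have hp2 : p ≠ 2 := by rw [← hr2]; exact hpr
    have hodd := hp.odd_of_ne_two hp2
    have hfact : Fact (Nat.Prime 2) := ⟨Nat.prime_two⟩
    obtain ⟨f, -, hF⟩ := FiniteField.card F 2
    obtain ⟨n, hn⟩ := Subgroup.mem_zpowers_iff.1 (PSp4.mem_zpowers_rcl hF (QuotientGroup.mk x))
    have h5 : (PSp4.rcl : Out (PSp 2 F)) ^ (n * p) = 1 := by
      rw [_root_.zpow_mul, hn, zpow_natCast, ← QuotientGroup.mk_pow, ← hx, pow_orderOf_eq_one, QuotientGroup.mk_one]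
    have h6 : ((2 * (f : ℕ) : ℕ) : ℤ) ∣ n * p := by
      rw [← PSp4.orderOf_rcl hF]
      exact orderOf_dvd_iff_zpow_eq_one.2 h5
    have h7 : (2 : ℤ) ∣ n := by
      have h8 : (2 : ℤ) ∣ n * p := dvd_trans ⟨f, by push_cast; ring⟩ h6
      refine Int.Prime.dvd_mul' Nat.prime_two h8 |>.resolve_right ?_
      intro h9
      have h10 : 2 ∣ p := by exact_mod_cast h9
      obtain ⟨t, ht⟩ := hodd
      omega
    obtain ⟨k, rfl⟩ := h7
    have h8 : (QuotientGroup.mk x : Out (PSp 2 F)) = QuotientGroup.mk (fd (PSp4.frb ^ k)) := by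
      rw [← hn, _root_.zpow_mul]
      have h9 : (PSp4.rcl : Out (PSp 2 F)) ^ (2 : ℤ) = QuotientGroup.mk (fd PSp4.frb) := by
        have := PSp4.rcl_sq (F := F) 1
        rw [mul_one, pow_one] at this
        rw [← this]; rfl
      rw [h9, map_zpow]; rfl
    have h9 : x * (fd (PSp4.frb ^ k))⁻¹ ∈ Inn (PSp 2 F) := by
      have h10 : (fd (PSp4.frb ^ k) : MulAut (PSp 2 F))⁻¹ * x ∈ Inn (PSp 2 F) := QuotientGroup.eq.1 h8.symm
      have hI : (Inn (PSp 2 F)).Normal := LBal.inn_normal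
      have := hI.conj_mem _ h10 (fd (PSp4.frb ^ k))
      rwa [show (fd (PSp4.frb ^ k) : MulAut (PSp 2 F)) * ((fd (PSp4.frb ^ k))⁻¹ * x) * (fd (PSp4.frb ^ k))⁻¹ =
        x * (fd (PSp4.frb ^ k))⁻¹ from by group] at this
    have h10 := inn_le_inndiag h9
    rw [inndiag_eq] at h10
    obtain ⟨g, hg⟩ := h10
    exact hmain g (PSp4.frb ^ k) (by rw [hg, inv_mul_cancel_right])

end Cfsg.Agent.Lib.PSpAut
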