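import Cfsg.Agent.Lib.RigidO
import Cfsg.Agent.Lib.PSpBal2
import Cfsg.Agent.Lib.PSLGraph
import Cfsg.Agent.Lib.SimDet

/-!
# The isometry group of a symmetric or alternating form, odd characteristic (helper45)

No non-trivial normal subgroup of odd order, even order, rigidity.
-/

set_option autoImplicit false
set_option linter.unusedSectionVars false

namespace Cfsg.Agent.Lib.FormCore

open Matrix Cfsg Module QuadraticMap
open Cfsg.Agent.Lib.SimForm Cfsg.Agent.Lib.Quad Cfsg.Agent.Lib.Rigid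

variable {K : Type*} [Field K] {n : ℕ} {B : (Fin n → K) →ₗ[K] (Fin n → K) →ₗ[K] K}

/-- isometries of determinant one -/
noncomputable def D1 (B : (Fin n → K) →ₗ[K] (Fin n → K) →ₗ[K] K) : Subgroup (IsoG B) :=
  (GeneralLinearGroup.det.comp (IsoG B).subtype).ker

theorem mem_D1 {x : IsoG B} : x ∈ D1 B ↔ GeneralLinearGroup.det x.1 = 1 := MonoidHom.mem_ker

theorem D1_normal : (D1 B).Normal := MonoidHom.normal_ker _

theorem map_normal {G : Type*} [Group G] (Ψ : IsoG B →* G) {x s : G} (hx : x ∈ Ψ.range) (hs : s ∈ (D1 B).map Ψ) :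
    x * s * x⁻¹ ∈ (D1 B).map Ψ := by
  obtain ⟨x, rfl⟩ := hx
  obtain ⟨s, hs, rfl⟩ := hs
  exact ⟨x * s * x⁻¹, D1_normal.conj_mem s hs x, by rw [map_mul, map_mul, map_inv]⟩

section symp

variable {m : ℕ}

/-- the image of the symplectic group -/
theorem exists_j (hm : 2 ≤ m) (hnm : n = 2 * m) (hB : ∀ x, B x x = 0) (hnB : NdB B) {G : Type*} [Group G]
    (Ψ : IsoG B →* G) (hΨ : ∀ x : IsoG B, Ψ x = 1 ↔ ∃ c : K, ∀ v, x.1.1 *ᵥ v = c • v) :
    ∃ j : PSp m K →* G, Function.Injective j ∧ j.range = (D1 B).map Ψ := by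
  obtain ⟨e, u, he⟩ := simil_symp (m := m) hB hnB (by rw [Module.finrank_fintype_fun_eq_card, Fintype.card_fin, hnm])
  have hmv : ∀ (s : PSpAut.SG m K) (x : Fin n → K), (cj e.symm (ClIso.sympToGL s)).1 *ᵥ x = e.symm (s.1 *ᵥ (e x)) := by
    intro s x
    rw [cj_mulVec]; rfl
  have hiso : ∀ s : PSpAut.SG m K, cj e.symm (ClIso.sympToGL s) ∈ IsoG B := by
    intro s x y
    have h1 := he (e.symm (s.1 *ᵥ (e x))) (e.symm (s.1 *ᵥ (e y)))
    rw [LinearEquiv.apply_symm_apply, LinearEquiv.apply_symm_apply] at h1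
    have h2 : ClIso.sympForm (Fin m) K (s.1 *ᵥ (e x)) (s.1 *ᵥ (e y)) = ClIso.sympForm (Fin m) K (e x) (e y) :=
      ClIso.mem_symplecticGroup_iff.1 s.2 (e x) (e y)
    rw [h2, he] at h1
    rw [hmv, hmv]
    exact (mul_left_cancel₀ u.ne_zero h1).symm
  let Φ : PSpAut.SG m K →* IsoG B := ((cj e.symm).toMonoidHom.comp ClIso.sympToGL).codRestrict _ hiso
  have hΦ : ∀ s, (Φ s).1 = cj e.symm (ClIso.sympToGL s) := fun s => rfl
  have hker : (Ψ.comp Φ).ker = Subgroup.center (PSpAut.SG m K) := by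
    ext s
    rw [MonoidHom.mem_ker, MonoidHom.comp_apply, hΨ, PSpAut.mem_center_iff']
    constructor
    · rintro ⟨c, hc⟩
      refine ⟨c, fun v => ?_⟩
      have h1 := hc (e.symm v)
      rw [hΦ, hmv, LinearEquiv.apply_symm_apply, ← map_smul] at h1
      exact e.symm.injective h1
    · rintro ⟨c, hc⟩
      exact ⟨c, fun v => by rw [hΦ, hmv, hc, map_smul, LinearEquiv.symm_apply_apply]⟩
  have hrange : (Ψ.comp Φ).range = (D1 B).map Ψ := by
    rw [MonoidHom.range_comp]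
    congr 1
    apply le_antisymm
    · rintro _ ⟨s, rfl⟩
      rw [mem_D1, hΦ, det_cj]
      apply Units.ext
      rw [GeneralLinearGroup.val_det_apply]
      exact SymplecticGroup.det_eq_one s.2
    · intro x _
      have h1 : cj e x.1 ∈ IsoG (ClIso.sympForm (Fin m) K) := by
        intro y z
        rw [cj_mulVec, cj_mulVec, he, x.2, ← he, LinearEquiv.apply_symm_apply, LinearEquiv.apply_symm_apply]
      refine ⟨isoG_symp ⟨_, h1⟩, ?_⟩
      apply Subtype.ext
      apply gl_ext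
      intro y
      rw [hΦ, hmv]
      have h2 : (isoG_symp ⟨_, h1⟩ : Matrix.symplecticGroup (Fin m) K).1 = (cj e x.1).1 := rfl
      rw [h2, cj_mulVec, LinearEquiv.symm_apply_apply, LinearEquiv.symm_apply_apply]
  refine ⟨((Ψ.comp Φ).range.subtype.comp ((QuotientGroup.quotientMulEquivOfEq hker.symm).trans
    (QuotientGroup.quotientKerEquivRange (Ψ.comp Φ))).toMonoidHom), ?_, ?_⟩
  · exact (Subgroup.subtype_injective _).comp (MulEquiv.injective _)
  · rw [MonoidHom.range_comp]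
    have h3 : ((QuotientGroup.quotientMulEquivOfEq hker.symm).trans
      (QuotientGroup.quotientKerEquivRange (Ψ.comp Φ))).toMonoidHom.range = ⊤ := MonoidHom.range_eq_top.2 (MulEquiv.surjective _)
    rw [h3, ← MonoidHom.range_eq_map, Subgroup.range_subtype, hrange]

theorem two_dvd_card_PSp [Fintype K] (h2 : (2 : K) ≠ 0) (hm : 2 ≤ m) : 2 ∣ Nat.card (PSp m K) := by
  have hfinP : Finite (PSp m K) := by unfold PSp; infer_instance
  have hfinA : Finite (MulAut (PSp m K)) := by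
    apply Finite.of_injective (fun α : MulAut (PSp m K) => (α : PSp m K → PSp m K))
    exact DFunLike.coe_injective
  obtain ⟨s, hs, hs2⟩ := PSpAut.exists_invol_subH (F := K) hm (RingHom.id K) h2
  have hker : (PSpAut.subH (m := m) (RingHom.id K)).ker = Subgroup.center (PSpAut.SG m K) := by
    ext s
    rw [MonoidHom.mem_ker]
    exact ⟨fun h => PSpAut.subH_eq_one hm _ h, fun h => PSpAut.subH_center (by omega) _ h⟩
  have h3 : Nat.card (PSp m K) = Nat.card (PSpAut.subH (m := m) (RingHom.id K)).range :=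
    Nat.card_congr ((QuotientGroup.quotientMulEquivOfEq hker.symm).trans (QuotientGroup.quotientKerEquivRange _)).toEquiv
  rw [h3, ← hs2]
  have := orderOf_dvd_natCard (⟨s, hs⟩ : (PSpAut.subH (m := m) (RingHom.id K)).range)
  rwa [Subgroup.orderOf_mk] at this

theorem core_symp [Fintype K] (h2 : (2 : K) ≠ 0) (hm : 2 ≤ m) (hnm : n = 2 * m) (hB : ∀ x, B x x = 0) (hnB : NdB B)
    {G : Type*} [Group G] (Ψ : IsoG B →* G) (hΨ : ∀ x : IsoG B, Ψ x = 1 ↔ ∃ c : K, ∀ v, x.1.1 *ᵥ v = c • v) :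
    2 ∣ Nat.card ((D1 B).map Ψ) ∧ ∀ N : Subgroup G, N ≤ (D1 B).map Ψ →
      (∀ s ∈ (D1 B).map Ψ, ∀ x ∈ N, s * x * s⁻¹ ∈ N) → (Nat.card N).Coprime 2 → N = ⊥ := by
  obtain ⟨j, hj1, hj2⟩ := exists_j hm hnm hB hnB Ψ hΨ
  have hcard : Nat.card ((D1 B).map Ψ) = Nat.card (PSp m K) := by
    rw [← hj2]
    exact (Nat.card_congr (MonoidHom.ofInjective hj1).toEquiv).symm
  have he := two_dvd_card_PSp h2 hm
  refine ⟨by rw [hcard]; exact he, fun N hN hnn hc => ?_⟩
  have hsimple : IsSimpleGroup (PSp m K) := S0270.result m hm (fun _ => by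
    by_contra hlt
    have h3 : Fintype.card K = 2 := by
      have := Fintype.one_lt_card (α := K); omega
    apply h2
    have h4 : ((Fintype.card K : ℕ) : K) = 0 := Nat.cast_card_eq_zero K
    rw [h3] at h4; exact_mod_cast h4)
  have hM : (N.comap j).Normal := by
    constructor
    intro x hx g
    rw [Subgroup.mem_comap] at hx ⊢
    rw [map_mul, map_mul, map_inv]
    exact hnn _ (by rw [← hj2]; exact ⟨g, rfl⟩) _ hx
  have hmap : (N.comap j).map j = N := by
    rw [Subgroup.map_comap_eq, hj2, inf_eq_right.2 hN]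
  rcases hM.eq_bot_or_eq_top with h | h
  · rw [← hmap, h, Subgroup.map_bot]
  · exfalso
    have h5 : Nat.card N = Nat.card (PSp m K) := by
      rw [← hmap, h, ← MonoidHom.range_eq_map]
      exact (Nat.card_congr (MonoidHom.ofInjective hj1).toEquiv).symm
    rw [h5, Nat.coprime_comm, Nat.prime_two.coprime_iff_not_dvd] at hc
    exact hc he

/-- rigidity -/
theorem rigid_symp {F : Type*} [Field F] (hn : 2 ≤ n) (hB : ∀ x, B x x = 0) (hnB : NdB B) {f₁ f₂ : K →+* F} {h : GL (Fin n) F}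
    (H : ∀ s ∈ IsoG B, GeneralLinearGroup.det s = 1 → ∃ c : F, h.1 * s.1.map f₁ = c • (s.1.map f₂ * h.1)) :
    (∃ u : Fˣ, ∀ v, h.1 *ᵥ v = (u : F) • v) ∧ ∀ y, f₁ y = f₂ y := by
  have : NeZero n := ⟨by omega⟩
  have hskew : ∀ x y, B x y = - B y x := by
    intro x y
    have h1 := hB (x + y)
    simp only [map_add, LinearMap.add_apply, hB] at h1
    linear_combination h1
  refine Rigid.all_lines (by rw [Fintype.card_fin]; exact hn) (fun z hz => ?_)
  obtain ⟨φ, hφ⟩ : ∃ φ : Fin n → K, ∀ x, φ ⬝ᵥ x = B x z := by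
    refine ⟨fun i => B (Pi.single i 1) z, fun x => ?_⟩
    have hx : x = ∑ i, x i • (Pi.single i 1 : Fin n → K) := by
      ext k
      simp [Finset.sum_apply, Pi.single_apply]
    conv_rhs => rw [hx]
    rw [map_sum, LinearMap.sum_apply, dotProduct]
    refine Finset.sum_congr rfl fun i _ => ?_
    rw [map_smul, LinearMap.smul_apply, smul_eq_mul, mul_comm]
  have hφz : φ ⬝ᵥ z = 0 := by rw [hφ, hB]
  have hφ0 : φ ≠ 0 := by
    rintro rfl
    apply hz
    apply hnB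
    intro y
    rw [hskew, ← hφ, zero_dotProduct, neg_zero]
  obtain ⟨c, hc⟩ := H (SpecialLinearGroup.toGL (PSLAut.tv z φ hφz)) (by
    intro x y
    have e1 : ∀ x, (SpecialLinearGroup.toGL (PSLAut.tv z φ hφz)).1 *ᵥ x = x + (B x z) • z := by
      intro x
      rw [← hφ]
      exact PSLAut.tv_mulVec z φ hφz x
    rw [e1, e1]
    simp only [map_add, map_smul, LinearMap.add_apply, LinearMap.smul_apply, smul_eq_mul, hB]
    rw [hskew z y]; ring) (PSLAut.det_toGL _)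
  refine Rigid.line_of_unip (k := 1) (φ := φ) (X := (PSLAut.tv z φ hφz).1) ?_ ?_ hφ0 hc
  · refine ⟨2, ?_⟩
    rw [PSLAut.tv_coe, add_sub_cancel_left, pow_two, vecMulVec_mul_vecMulVec, hφz]
    simp
  · rw [PSLAut.tv_coe, add_sub_cancel_left, pow_one]

end symp

section orth

theorem isoG_iff (h2 : (2 : K) ≠ 0) (hB : ∀ x y, B x y = B y x) (x : (Fin n → K) ≃ₗ[K] (Fin n → K)) :
    x ∈ O (qf B) ↔ mt x ∈ IsoG B := by
  constructor
  · intro h y z
    rw [mt_mulVec, mt_mulVec]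
    have h1 := O_polar h y z
    rw [polar_qf hB, polar_qf hB] at h1
    exact mul_left_cancel₀ h2 h1
  · intro h y
    have h1 := h y y
    rw [mt_mulVec] at h1
    exact h1

theorem exists_nonsing_perp [Finite K] (h2 : (2 : K) ≠ 0) {Q : QuadraticForm K (Fin n → K)} (hQ : Nd Q) (hn : 3 ≤ n) :
    ∃ a b, Q a ≠ 0 ∧ Q b ≠ 0 ∧ polar Q a b = 0 := by
  have hfr : finrank K (Fin n → K) = n := by rw [Module.finrank_fintype_fun_eq_card, Fintype.card_fin]
  obtain ⟨a, ha⟩ : ∃ a, Q a ≠ 0 := by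
    by_contra hcon
    push Not at hcon
    have h0 : ∀ x : Fin n → K, x = 0 := by
      intro x
      apply hQ.eq_zero
      intro y
      rw [polar, hcon, hcon, hcon]; ring
    have h1 := h0 (Pi.single ⟨0, by omega⟩ 1)
    have := congrFun h1 ⟨0, by omega⟩
    simp at this
  by_contra hcon
  push Not at hcon
  have hz : ∀ b, polar Q a b = 0 → Q b = 0 := by
    intro b hb
    by_contra h
    exact hcon a b ha h hb
  obtain ⟨w, hw0, hw⟩ : ∃ w : Fin n → K, w ≠ 0 ∧ polar Q a w = 0 := by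
    have hk : LinearMap.ker (polarBilin Q a) ≠ ⊥ := by
      apply LinearMap.ker_ne_bot_of_finrank_lt
      rw [hfr, Module.finrank_self]
      omega
    obtain ⟨x, hx, hx0⟩ := Submodule.exists_mem_ne_zero_of_ne_bot hk
    exact ⟨x, hx0, hx⟩
  apply hw0
  apply hQ.eq_zero
  intro v
  obtain ⟨t, ht⟩ : ∃ t, t = polar Q a v / (2 * Q a) := ⟨_, rfl⟩
  have h2a : 2 * Q a ≠ 0 := mul_ne_zero h2 ha
  have hv' : polar Q a (v - t • a) = 0 := by
    rw [polar_sub_right, polar_smul_right, polar_self', smul_eq_mul, ht, div_mul_cancel₀ _ h2a, sub_self]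
  have h3 := hz (w + (v - t • a)) (by rw [polar_add_right, hw, hv', add_zero])
  rw [Q_add, hz w hw, hz _ hv', zero_add, zero_add, polar_sub_right, polar_smul_right, polar_comm _ w a, hw, smul_zero,
    sub_zero] at h3
  exact h3

theorem core_orth [Finite K] (h2 : (2 : K) ≠ 0) (hn : 3 ≤ n) (hB : ∀ x y, B x y = B y x) (hnB : NdB B)
    {G : Type*} [Group G] [Finite G] (Ψ : IsoG B →* G) (hΨ : ∀ x : IsoG B, Ψ x = 1 ↔ ∃ c : K, ∀ v, x.1.1 *ᵥ v = c • v) :
    2 ∣ Nat.card ((D1 B).map Ψ) ∧ ∀ N : Subgroup G, N ≤ (D1 B).map Ψ →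
      (∀ s ∈ (D1 B).map Ψ, ∀ x ∈ N, s * x * s⁻¹ ∈ N) → (Nat.card N).Coprime 2 → N = ⊥ := by
  have hQ : Nd (qf B) := nd_qf h2 hB hnB
  have hfr : finrank K (Fin n → K) = n := by rw [Module.finrank_fintype_fun_eq_card, Fintype.card_fin]
  let T : O (qf B) →* IsoG B := ((LinAux.glEquiv (Fin n) K).symm.toMonoidHom.comp (O (qf B)).subtype).codRestrict _
    (fun x => (isoG_iff h2 hB x.1).1 x.2)
  have hT : ∀ x, (T x).1 = mt x.1 := fun x => rfl
  have hker : ∀ x : O (qf B), (Ψ.comp T) x = 1 ↔ ∃ c : K, ∀ v, x.1 v = c • v := by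
    intro x
    rw [MonoidHom.comp_apply, hΨ]
    constructor
    · rintro ⟨c, hc⟩
      exact ⟨c, fun v => by rw [← hc v, hT, mt_mulVec]⟩
    · rintro ⟨c, hc⟩
      exact ⟨c, fun v => by rw [hT, mt_mulVec, hc]⟩
  have hsurj : Function.Surjective T := by
    intro x
    have h1 : mt (LinAux.glEquiv (Fin n) K x.1) = x.1 := MulEquiv.symm_apply_apply _ _
    refine ⟨⟨LinAux.glEquiv (Fin n) K x.1, (isoG_iff h2 hB _).2 (by rw [h1]; exact x.2)⟩, ?_⟩
    apply Subtype.ext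
    rw [hT]; exact h1
  constructor
  · obtain ⟨a, b, ha, hb, hab⟩ := exists_nonsing_perp h2 hQ hn
    obtain ⟨h3, h4⟩ := OddCore.invol h2 hQ (by rw [hfr]; exact hn) hb ha hab
    obtain ⟨x, hx⟩ : ∃ x : O (qf B), x.1 = refl (qf B) a * refl (qf B) b :=
      ⟨⟨_, (O (qf B)).mul_mem (refl_mem a) (refl_mem b)⟩, rfl⟩
    have h5 : Ψ (T x) ∈ (D1 B).map Ψ := by
      refine ⟨T x, ?_, rfl⟩
      rw [SetLike.mem_coe, mem_D1, hT, hx]
      have : mt (refl (qf B) a * refl (qf B) b) = mt (refl (qf B) a) * mt (refl (qf B) b) := map_mul _ _ _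
      rw [this, map_mul]
      apply Units.ext
      rw [Units.val_mul, GeneralLinearGroup.val_det_apply, GeneralLinearGroup.val_det_apply, det_mt_refl ha, det_mt_refl hb]
      simp
    have h6 : orderOf (Ψ (T x)) = 2 := by
      apply orderOf_eq_prime
      · have : x ^ 2 = 1 := by
          apply Subtype.ext
          rw [Subgroup.coe_pow, hx, h3]; rfl
        rw [← map_pow, ← map_pow, this, map_one, map_one]
      · intro h7
        obtain ⟨c, hc⟩ := (hker x).1 h7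
        obtain ⟨v, hv⟩ := h4 c
        rw [hx] at hc
        exact hv (hc v)
    rw [← h6]
    have := orderOf_dvd_natCard (⟨_, h5⟩ : (D1 B).map Ψ)
    rwa [Subgroup.orderOf_mk] at this
  · intro N hN hnn hc
    refine OddCore.no_odd_normal (S := (D1 B).map Ψ) h2 hQ (by rw [hfr]; exact hn) (Ψ.comp T) hker ?_ ?_ hN hnn hc
    · rintro _ ⟨y, -, rfl⟩
      obtain ⟨x, rfl⟩ := hsurj y
      exact ⟨x, rfl⟩
    · intro t s hs
      exact map_normal Ψ ⟨T t, rfl⟩ hs

theorem rigid_orthB {F : Type*} [Field F] [Finite K] (h2 : (2 : K) ≠ 0) (hn : 3 ≤ n) (hB : ∀ x y, B x y = B y x) (hnB : NdB B)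
    {f₁ f₂ : K →+* F} {h : GL (Fin n) F}
    (H : ∀ s ∈ IsoG B, GeneralLinearGroup.det s = 1 → ∃ c : F, h.1 * s.1.map f₁ = c • (s.1.map f₂ * h.1)) :
    (∃ u : Fˣ, ∀ v, h.1 *ᵥ v = (u : F) • v) ∧ ∀ y, f₁ y = f₂ y := by
  have hQ : Nd (qf B) := nd_qf h2 hB hnB
  refine rigid_orth (Q := qf B) hQ h2 (by rw [Fintype.card_fin]; exact hn) (fun a b ha hb => ?_)
  apply H
  · exact (isoG_iff h2 hB _).1 ((O (qf B)).mul_mem (refl_mem a) (refl_mem b))
  · have : mt (refl (qf B) a * refl (qf B) b) = mt (refl (qf B) a) * mt (refl (qf B) b) := map_mul _ _ _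
    rw [this, map_mul]
    apply Units.ext
    rw [Units.val_mul, GeneralLinearGroup.val_det_apply, GeneralLinearGroup.val_det_apply, det_mt_refl ha, det_mt_refl hb]
    simp

end orth

/-- both cases -/
theorem core [Fintype K] (h2 : (2 : K) ≠ 0) (hn : 3 ≤ n) (hB : (∀ x y, B x y = B y x) ∨ ∀ x, B x x = 0) (hnB : NdB B)
    {G : Type*} [Group G] [Finite G] (Ψ : IsoG B →* G) (hΨ : ∀ x : IsoG B, Ψ x = 1 ↔ ∃ c : K, ∀ v, x.1.1 *ᵥ v = c • v) :
    2 ∣ Nat.card ((D1 B).map Ψ) ∧ ∀ N : Subgroup G, N ≤ (D1 B).map Ψ →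
      (∀ s ∈ (D1 B).map Ψ, ∀ x ∈ N, s * x * s⁻¹ ∈ N) → (Nat.card N).Coprime 2 → N = ⊥ := by
  rcases hB with hB | hB
  · exact core_orth h2 hn hB hnB Ψ hΨ
  · obtain ⟨m, hm⟩ : ∃ m, n = 2 * m := by
      obtain ⟨m, hm⟩ := AltForm.even_finrank B hB hnB
      rw [Module.finrank_fintype_fun_eq_card, Fintype.card_fin] at hm
      exact ⟨m, by omega⟩
    exact core_symp h2 (by omega) hm hB hnB Ψ hΨ

theorem rigid {F : Type*} [Field F] [Fintype K] (h2 : (2 : K) ≠ 0) (hn : 3 ≤ n) (hB : (∀ x y, B x y = B y x) ∨ ∀ x, B x x = 0)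
    (hnB : NdB B) (h : GL (Fin n) F) (f₁ f₂ : K →+* F)
    (H : ∀ s ∈ {s | s ∈ IsoG B ∧ GeneralLinearGroup.det s = 1}, ∃ c : F, h.1 * s.1.map f₁ = c • (s.1.map f₂ * h.1)) :
    (∃ u : Fˣ, ∀ v, h.1 *ᵥ v = (u : F) • v) ∧ ∀ y, f₁ y = f₂ y := by
  rcases hB with hB | hB
  · exact rigid_orthB h2 hn hB hnB (fun s hs hs' => H s ⟨hs, hs'⟩)
  · exact rigid_symp (by omega) hB hnB (fun s hs hs' => H s ⟨hs, hs'⟩)

end Cfsg.Agent.Lib.FormCore
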