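import Cfsg.Agent.Lib.FourClass

set_option autoImplicit false

/-!
If no odd order element is inverted by a 2-element then `G / O₂(G)` has odd order.
-/

namespace Cfsg.Agent.Lib.FourClass

open Subgroup Cfsg.Agent.Lib.ClassPow
open scoped Pointwise

universe u

theorem odd_quotient_of_no_inverted (G : Type u) [Group G] [Finite G]
    (h : ∀ t x : G, (∃ k, orderOf t = 2 ^ k) → Odd (orderOf x) → t * x * t⁻¹ = x⁻¹ → x = 1) :
    Odd (Nat.card (G ⧸ Cfsg.pCore 2 G)) := by
  classical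
  have hF2 : Fact (Nat.Prime 2) := ⟨Nat.prime_two⟩
  set N := Cfsg.pCore 2 G with hN
  have hNn : N.Normal := inferInstance
  have hNp : IsPGroup 2 N := Cores.isPGroup_pCore 2 G
  have hNs : Group.IsSolvable N := by
    have := hNp.isNilpotent
    infer_instance
  by_contra hodd
  rw [Nat.not_odd_iff_even] at hodd
  obtain ⟨tb, htb⟩ := exists_prime_orderOf_dvd_card' 2 hodd.two_dvd
  have hnot : ∀ M : Subgroup (G ⧸ N), M.Normal → IsPGroup 2 M → tb ∉ M := by
    intro M hM hMp hmem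
    have h1 := Cores.le_pCore hM hMp hmem
    rw [Cores.pCore_quotient_pCore, mem_bot] at h1
    rw [h1, orderOf_one] at htb
    omega
  obtain ⟨hb, hb1, hbo, hbt⟩ := BaerSuzuki.exists_inverted_odd tb htb hnot
  obtain ⟨x, rfl, hx⟩ := exists_lift_regular N 2 Nat.prime_two hb (Nat.coprime_two_right.2 hbo)
  obtain ⟨t0, rfl⟩ := QuotientGroup.mk_surjective tb
  set y := t0 * x * t0⁻¹ with hy
  have hyx : y * x ∈ N := by
    rw [← QuotientGroup.eq_one_iff, QuotientGroup.mk_mul]
    have : (y : G ⧸ N) = ((x : G ⧸ N))⁻¹ := hbt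
    rw [this, inv_mul_cancel]
  have hyo : orderOf y = orderOf x := by
    have := orderOf_injective (MulAut.conj t0).toMonoidHom (MulAut.conj t0).injective x
    rw [← this]; rfl
  have hsup : N ⊔ zpowers x = N ⊔ zpowers y := by
    apply le_antisymm
    · refine sup_le le_sup_left ?_
      rw [zpowers_le]
      have h1 : x = y⁻¹ * (y * x) := by group
      rw [h1]
      exact mul_mem (inv_mem (mem_sup_right (mem_zpowers y))) (mem_sup_left hyx)
    · refine sup_le le_sup_left ?_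
      rw [zpowers_le]
      have h1 : y = (y * x) * x⁻¹ := by group
      rw [h1]
      exact mul_mem (mem_sup_left hyx) (inv_mem (mem_sup_right (mem_zpowers x)))
  have hcard : (Nat.card N).Coprime (orderOf x) := by
    obtain ⟨k, hk⟩ := IsPGroup.iff_card.1 hNp
    rw [hk]
    exact Nat.Coprime.pow_left k hx.symm
  obtain ⟨a, haN, ha⟩ := SchurZassenhaus.conj_of_solvable_left (N := N) (H := zpowers x) (K := zpowers y)
    le_normalizer_of_normal le_normalizer_of_normal hsup (by rwa [Nat.card_zpowers])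
    (by rwa [Nat.card_zpowers, hyo]) hNs
  set t := a⁻¹ * t0 with ht
  have htx : t * x * t⁻¹ ∈ zpowers x := by
    have h1 : y ∈ MulAut.conj a • zpowers x := by rw [ha]; exact mem_zpowers y
    rw [BaerSuzuki.mem_conj_smul_iff] at h1
    have h2 : t * x * t⁻¹ = a⁻¹ * y * a := by rw [ht, hy]; group
    rw [h2]; exact h1
  have htt : (t : G ⧸ N) = t0 := by
    rw [ht, QuotientGroup.mk_mul]
    have : ((a⁻¹ : G) : G ⧸ N) = 1 := (QuotientGroup.eq_one_iff _).2 (inv_mem haN)
    rw [this, one_mul]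
  have hmem : (t * x * t⁻¹) * x = 1 := by
    have h1 : (t * x * t⁻¹) * x ∈ N := by
      rw [← QuotientGroup.eq_one_iff, QuotientGroup.mk_mul, QuotientGroup.mk_mul, QuotientGroup.mk_mul,
        QuotientGroup.mk_inv, htt, hbt, inv_mul_cancel]
    have h2 : (t * x * t⁻¹) * x ∈ zpowers x := mul_mem htx (mem_zpowers x)
    have h3 : N ⊓ zpowers x = ⊥ := SubgroupTools.inf_eq_bot_of_coprime' (by rwa [Nat.card_zpowers])
    have h4 : (t * x * t⁻¹) * x ∈ N ⊓ zpowers x := ⟨h1, h2⟩
    rwa [h3, mem_bot] at h4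
  have h2el : ∃ k, orderOf t = 2 ^ k := by
    have h1 : t ^ 2 ∈ N := by
      rw [← QuotientGroup.eq_one_iff, QuotientGroup.mk_pow, htt, ← htb]
      exact pow_orderOf_eq_one _
    obtain ⟨k, hk⟩ := IsPGroup.iff_orderOf.1 hNp ⟨t ^ 2, h1⟩
    rw [Subgroup.orderOf_mk] at hk
    have h3 : t ^ 2 ^ (k + 1) = 1 := by
      rw [pow_succ', pow_mul, ← hk]; exact pow_orderOf_eq_one _
    obtain ⟨j, _, hj⟩ := (Nat.dvd_prime_pow Nat.prime_two).1 (orderOf_dvd_of_pow_eq_one h3)
    exact ⟨j, hj⟩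
  have hx1 := h t x h2el (Nat.coprime_two_right.1 hx) (eq_inv_of_mul_eq_one_left hmem)
  apply hb1
  rw [hx1]; rfl

end Cfsg.Agent.Lib.FourClass
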