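import Mathlib
import Cfsg.Agent.Lib.DirectSylow
import Cfsg.Agent.Lib.H70Basic
import Cfsg.Agent.Lib.PPart
import Cfsg.Agent.Lib.MinNonNilp
import Cfsg.Agent.Lib.SylowTools
import Cfsg.Agent.Lib.SubgroupTools
import Cfsg.Agent.Lib.ItoTwoSizes

/-!
Finite groups whose class sizes are `1, n, m, n * m` with `n, m` coprime: basic facts.
-/

set_option autoImplicit false

namespace Cfsg.Agent.Lib.FourSizes

open Subgroup

variable {G : Type*} [Group G]

abbrev cz (x : G) : Subgroup G := centralizer ({x} : Set G)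

noncomputable abbrev ci (x : G) : ℕ := (cz x).index

def SEl (s : ℕ) (x : G) : Prop := ∃ k, orderOf x = s ^ k

theorem mem_cz {x g : G} : g ∈ cz x ↔ g * x = x * g := mem_centralizer_singleton_iff

theorem mem_cz_comm {x g : G} : g ∈ cz x ↔ x ∈ cz g := by
  rw [mem_cz, mem_cz]; exact eq_comm

theorem mem_cz_of_le {x y : G} (h : cz x ≤ cz y) {g : G} (hg : g ∈ cz x) : g ∈ cz y := h hg

theorem ci_eq_one {x : G} : ci x = 1 ↔ x ∈ center G := by
  rw [ci, Subgroup.index_eq_one, Subgroup.mem_center_iff]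
  constructor
  · intro h g
    have : g ∈ cz x := by rw [h]; trivial
    exact mem_cz.1 this
  · intro h
    rw [eq_top_iff]
    intro g _
    exact mem_cz.2 (h g)

theorem ci_dvd {x y : G} (h : cz x ≤ cz y) : ci y ∣ ci x := index_dvd_of_le h

theorem mem_cz_conj {x g y : G} : y ∈ cz (g * x * g⁻¹) ↔ g⁻¹ * y * g ∈ cz x := by
  rw [mem_cz, mem_cz]
  constructor
  · intro h
    calc g⁻¹ * y * g * x = g⁻¹ * (y * (g * x * g⁻¹)) * g := by group
      _ = g⁻¹ * ((g * x * g⁻¹) * y) * g := by rw [h]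
      _ = x * (g⁻¹ * y * g) := by group
  · intro h
    calc y * (g * x * g⁻¹) = g * ((g⁻¹ * y * g) * x) * g⁻¹ := by group
      _ = g * (x * (g⁻¹ * y * g)) * g⁻¹ := by rw [h]
      _ = g * x * g⁻¹ * y := by group

theorem cz_conj (x g : G) : cz (g * x * g⁻¹) = (cz x).map (MulAut.conj g).toMonoidHom := by
  ext y
  rw [mem_cz_conj, SylowTools.mem_map_conj_iff]

theorem ci_conj (x g : G) : ci (g * x * g⁻¹) = ci x := by
  rw [ci, cz_conj]
  exact Subgroup.index_map_equiv (cz x) (MulAut.conj g)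

theorem sel_conj {s : ℕ} {x : G} (h : SEl s x) (g : G) : SEl s (g * x * g⁻¹) := by
  obtain ⟨k, hk⟩ := h
  exact ⟨k, by rw [SylowTools.orderOf_conj', hk]⟩

theorem conj_mem_center_iff {x g : G} : g * x * g⁻¹ ∈ center G ↔ x ∈ center G := by
  rw [← ci_eq_one, ← ci_eq_one, ci_conj]

theorem sel_cop {s : ℕ} (hs : s.Prime) {u w : G} (hu : SEl s u) (hw : ¬ s ∣ orderOf w) :
    (orderOf u).Coprime (orderOf w) := by
  obtain ⟨k, hk⟩ := hu
  rw [hk]
  exact Nat.Coprime.pow_left k ((Nat.Prime.coprime_iff_not_dvd hs).2 hw)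

theorem sel_not_dvd {s r : ℕ} (hs : s.Prime) (hr : r.Prime) (hrs : r ≠ s) {w : G} (hw : SEl r w) :
    ¬ s ∣ orderOf w := by
  obtain ⟨k, hk⟩ := hw
  rw [hk]
  intro h
  exact hrs ((Nat.prime_dvd_prime_iff_eq hs hr).1 (hs.dvd_of_dvd_pow h)).symm

theorem sel_ispgroup {s : ℕ} {u : G} (hu : SEl s u) : IsPGroup s (zpowers u) := by
  obtain ⟨k, hk⟩ := hu
  exact IsPGroup.of_card (n := k) (by rw [Nat.card_zpowers]; exact hk)

theorem sel_of_mem {s : ℕ} [Fact s.Prime] {P : Subgroup G} [Finite G] (hP : IsPGroup s P) {u : G} (hu : u ∈ P) :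
    SEl s u := by
  obtain ⟨k, hk⟩ := IsPGroup.iff_orderOf.1 hP ⟨u, hu⟩
  exact ⟨k, by rw [← hk, Subgroup.orderOf_mk]⟩

theorem sel_of_not_center {s : ℕ} {u : G} (hu : SEl s u) (h : u ∉ center G) : s ∣ orderOf u := by
  obtain ⟨k, hk⟩ := hu
  have hk0 : k ≠ 0 := by
    rintro rfl
    rw [pow_zero, orderOf_eq_one_iff] at hk
    exact h (hk ▸ one_mem _)
  rw [hk]
  exact dvd_pow_self s hk0

section fin

variable [Finite G]

theorem cz_eq {x y : G} (h : cz x ≤ cz y) (hi : ci x = ci y) : cz x = cz y :=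
  ItoTwoSizes.eq_of_le_of_index h hi

theorem cz_mul {x y : G} (hc : y ∈ cz x) (ho : (orderOf x).Coprime (orderOf y)) : cz (x * y) = cz x ⊓ cz y :=
  H70Basic.centralizer_mul_of_coprime (mem_cz.1 hc).symm ho

/-- an `s`-element of `D` is conjugate in `D` into a subgroup of index prime to `s` -/
theorem conj_rel {s : ℕ} (hs : s.Prime) {H D : Subgroup G} (hHD : H ≤ D) (hi : ¬ s ∣ H.relIndex D) {w : G}
    (hw : w ∈ D) (hws : SEl s w) : ∃ c ∈ D, c * w * c⁻¹ ∈ H := by
  have := Fact.mk hs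
  obtain ⟨P, -, hPH, hP, hPi⟩ := SylowTools.exists_sylow_of_subgroup (p := s) (K := H) (H := ⊥) bot_le
    (IsPGroup.of_bot)
  have h1 : ¬ s ∣ P.relIndex D := by
    rw [← Subgroup.relIndex_mul_relIndex P H D hPH hHD]
    intro h
    rcases hs.dvd_mul.1 h with h | h
    · exact hPi h
    · exact hi h
  obtain ⟨k, hk, hk2⟩ := SylowTools.conj_elem_into_of_subgroup (hPH.trans hHD) hP h1 hw hws
  exact ⟨k, hk, hPH hk2⟩

theorem conj_top {s : ℕ} (hs : s.Prime) {H : Subgroup G} (hi : ¬ s ∣ H.index) {w : G} (hws : SEl s w) :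
    ∃ c : G, c * w * c⁻¹ ∈ H := by
  obtain ⟨c, -, hc⟩ := conj_rel hs (le_top : H ≤ ⊤) (by rwa [relIndex_top_right]) (mem_top w) hws
  exact ⟨c, hc⟩

theorem exists_sel_of_dvd {H : Subgroup G} {s : ℕ} (hs : s.Prime) (hd : s ∣ (center G).relIndex H) :
    ∃ y ∈ H, y ∉ center G ∧ SEl s y := by
  classical
  have := Fact.mk hs
  obtain ⟨T⟩ : Nonempty (Sylow s H) := inferInstance
  by_contra hcon
  push Not at hcon
  have hT : ∀ t : H, t ∈ (T : Subgroup H) → (t : G) ∈ center G := by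
    intro t ht
    by_contra ht2
    obtain ⟨k, hk⟩ := IsPGroup.iff_orderOf.1 T.isPGroup' ⟨t, ht⟩
    apply hcon t t.2 ht2 ⟨k, _⟩
    rw [← hk, Subgroup.orderOf_mk, Subgroup.orderOf_coe]
  have hle : (T : Subgroup H) ≤ (center G).subgroupOf H := fun t ht => Subgroup.mem_subgroupOf.2 (hT t ht)
  have h1 : ((center G).subgroupOf H).index ∣ (T : Subgroup H).index := Subgroup.index_dvd_of_le hle
  exact T.not_dvd_index (hd.trans h1)

theorem dvd_of_sel {H : Subgroup G} {s : ℕ} (hs : s.Prime) {u : G} (hu : u ∈ H) (huz : u ∉ center G)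
    (hus : SEl s u) : s ∣ (center G).relIndex H := by
  obtain ⟨k, hk⟩ := hus
  have h1 : Nat.card (H ⧸ (center G).subgroupOf H) = (center G).relIndex H := rfl
  rw [← h1]
  have hne : ((⟨u, hu⟩ : H) : H ⧸ (center G).subgroupOf H) ≠ 1 := by
    rw [Ne, QuotientGroup.eq_one_iff]
    exact huz
  set w := ((⟨u, hu⟩ : H) : H ⧸ (center G).subgroupOf H) with hw
  have h2 : w ^ s ^ k = 1 := by
    rw [hw, ← QuotientGroup.mk_pow]
    have : (⟨u, hu⟩ : H) ^ s ^ k = 1 := by
      apply Subtype.ext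
      show u ^ s ^ k = 1
      rw [← hk]; exact pow_orderOf_eq_one u
    rw [this]; rfl
  obtain ⟨i, _, hi⟩ := (Nat.dvd_prime_pow hs).1 (orderOf_dvd_of_pow_eq_one h2)
  have hi0 : i ≠ 0 := by
    rintro rfl
    rw [pow_zero, orderOf_eq_one_iff] at hi
    exact hne hi
  exact (dvd_pow_self s hi0).trans (hi ▸ orderOf_dvd_natCard w)

theorem relIndex_mul (g : G) : (center G).relIndex (cz g) * ci g = (center G).index :=
  Subgroup.relIndex_mul_index (Subgroup.center_le_centralizer _)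

end fin

structure Dat (G : Type*) [Group G] (n m : ℕ) : Prop where
  hn : 1 < n
  hm : 1 < m
  cop : n.Coprime m
  all : ∀ g : G, ci g = 1 ∨ ci g = n ∨ ci g = m ∨ ci g = n * m
  exn : ∃ g : G, ci g = n
  exm : ∃ g : G, ci g = m
  exnm : ∃ g : G, ci g = n * m

namespace Dat

variable {n m : ℕ}

theorem symm (h : Dat G n m) : Dat G m n where
  hn := h.hm
  hm := h.hn
  cop := h.cop.symm
  all := by
    intro g
    rcases h.all g with h1 | h1 | h1 | h1
    · exact Or.inl h1
    · exact Or.inr (Or.inr (Or.inl h1))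
    · exact Or.inr (Or.inl h1)
    · exact Or.inr (Or.inr (Or.inr (by rw [h1, mul_comm])))
  exn := h.exm
  exm := h.exn
  exnm := by
    obtain ⟨g, hg⟩ := h.exnm
    exact ⟨g, by rw [hg, mul_comm]⟩

theorem dvd_nm (h : Dat G n m) (g : G) : ci g ∣ n * m := by
  rcases h.all g with h1 | h1 | h1 | h1
  · rw [h1]; exact one_dvd _
  · rw [h1]; exact dvd_mul_right _ _
  · rw [h1]; exact dvd_mul_left _ _
  · rw [h1]

theorem not_m_dvd_n (h : Dat G n m) : ¬ m ∣ n := by
  intro hd
  have := Nat.eq_one_of_dvd_coprimes h.cop hd dvd_rfl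
  have := h.hm
  omega

theorem not_n_dvd_m (h : Dat G n m) : ¬ n ∣ m := h.symm.not_m_dvd_n

theorem eq_n_of_dvd (h : Dat G n m) {g : G} (hg : g ∉ center G) (hd : ci g ∣ n) : ci g = n := by
  rcases h.all g with h1 | h1 | h1 | h1
  · exact absurd (ci_eq_one.1 h1) hg
  · exact h1
  · rw [h1] at hd; exact absurd hd h.not_m_dvd_n
  · rw [h1] at hd; exact absurd ((dvd_mul_left m n).trans hd) h.not_m_dvd_n

theorem eq_of_n_dvd (h : Dat G n m) {g : G} (hd : n ∣ ci g) : ci g = n ∨ ci g = n * m := by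
  rcases h.all g with h1 | h1 | h1 | h1
  · rw [h1] at hd
    have := Nat.le_of_dvd one_pos hd
    have := h.hn
    omega
  · exact Or.inl h1
  · rw [h1] at hd; exact absurd hd h.not_n_dvd_m
  · exact Or.inr h1

theorem eq_nm (h : Dat G n m) {g : G} (hd : n ∣ ci g) (hd2 : m ∣ ci g) : ci g = n * m := by
  rcases h.eq_of_n_dvd hd with h1 | h1
  · rw [h1] at hd2; exact absurd hd2 h.not_m_dvd_n
  · exact h1

theorem not_dvd_n (h : Dat G n m) {s : ℕ} (hs : s.Prime) (hsm : s ∣ m) : ¬ s ∣ n := by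
  intro h1
  exact hs.one_lt.ne' (Nat.eq_one_of_dvd_coprimes h.cop h1 hsm)

/-- the class size when a prime divisor of `m` divides it -/
theorem eq_of_s_dvd (h : Dat G n m) {s : ℕ} (hs : s.Prime) (hsm : s ∣ m) {g : G} (hd : s ∣ ci g) :
    ci g = m ∨ ci g = n * m := by
  rcases h.all g with h1 | h1 | h1 | h1
  · rw [h1] at hd
    exact absurd (Nat.dvd_one.1 hd) hs.one_lt.ne'
  · rw [h1] at hd; exact absurd hd (h.not_dvd_n hs hsm)
  · exact Or.inl h1
  · exact Or.inr h1

theorem eq_of_s_not_dvd (h : Dat G n m) {s : ℕ} (hsm : s ∣ m) {g : G} (hd : ¬ s ∣ ci g) :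
    ci g = 1 ∨ ci g = n := by
  rcases h.all g with h1 | h1 | h1 | h1
  · exact Or.inl h1
  · exact Or.inr h1
  · rw [h1] at hd; exact absurd hsm hd
  · rw [h1] at hd; exact absurd (hsm.mul_left n) hd

theorem notc_n (h : Dat G n m) {x : G} (hx : ci x = n) : x ∉ center G := by
  intro hc
  rw [← ci_eq_one, hx] at hc
  have := h.hn
  omega

theorem notc_m (h : Dat G n m) {x : G} (hx : ci x = m) : x ∉ center G := h.symm.notc_n hx

theorem notc_nm (h : Dat G n m) {x : G} (hx : ci x = n * m) : x ∉ center G := by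
  intro hc
  rw [← ci_eq_one, hx] at hc
  have := Nat.eq_one_of_mul_eq_one_left hc
  have := h.hn
  have := h.hm
  omega

variable [Finite G]

theorem exists_primary (h : Dat G n m) : ∃ (p : ℕ) (x : G), p.Prime ∧ SEl p x ∧ ci x = n := by
  obtain ⟨g, hg⟩ := h.exn
  obtain ⟨r, k, j, hr, hk, hj⟩ := MinNonNilp.exists_prime_power_order (center G) (h.notc_n hg)
  refine ⟨r, g ^ j, hr, ⟨k, hk⟩, h.eq_n_of_dvd hj ?_⟩
  rw [← hg]
  apply ci_dvd
  intro u hu
  rw [mem_cz] at hu ⊢
  exact ((show Commute u g from hu).pow_right j).eq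

theorem nm_le (h : Dat G n m) {u w : G} (hu : ci u = n * m) (hc : w ∈ cz u)
    (ho : (orderOf u).Coprime (orderOf w)) : cz u ≤ cz w := by
  have h1 := cz_mul hc ho
  have h2 : cz (u * w) ≤ cz u := by rw [h1]; exact inf_le_left
  have h3 : ci (u * w) = ci u := by
    rw [hu]
    apply Nat.dvd_antisymm (h.dvd_nm _)
    rw [← hu]
    exact ci_dvd h2
  rw [← cz_eq h2 h3, h1]
  exact inf_le_right

/-- the class size of a product of commuting elements of coprime orders, one of class size `n` -/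
theorem ci_mul_n (h : Dat G n m) {u w : G} (hu : ci u = n) (hc : w ∈ cz u)
    (ho : (orderOf u).Coprime (orderOf w)) : ci (u * w) = n ∨ ci (u * w) = n * m := by
  apply h.eq_of_n_dvd
  rw [← hu]
  apply ci_dvd
  rw [cz_mul hc ho]
  exact inf_le_left

theorem ci_mul_nm (h : Dat G n m) {u w : G} (hu : ci u = n) (hc : w ∈ cz u)
    (ho : (orderOf u).Coprime (orderOf w)) (hw : m ∣ ci w) : ci (u * w) = n * m := by
  apply h.eq_nm
  · rw [← hu]
    apply ci_dvd
    rw [cz_mul hc ho]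
    exact inf_le_left
  · refine hw.trans (ci_dvd ?_)
    rw [cz_mul hc ho]
    exact inf_le_right

/-- `s`-elements are central when `s` does not divide `n * m` -/
theorem center_of_not_dvd (h : Dat G n m) {s : ℕ} (hs : s.Prime) (hsn : ¬ s ∣ n * m) {x : G} (hx : SEl s x) :
    x ∈ center G := by
  have := Fact.mk hs
  obtain ⟨P⟩ : Nonempty (Sylow s G) := inferInstance
  have hnd : ∀ g : G, ¬ s ∣ ci g := fun g hd => hsn (hd.trans (h.dvd_nm g))
  have hcov : centralizer ((P : Subgroup G) : Set G) = ⊤ := by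
    apply H70Basic.eq_top_of_forall_conj_mem
    intro g
    obtain ⟨Q, hQ⟩ := ClassSizeCounting.exists_sylow_le_centralizer s g (hnd g)
    obtain ⟨y, hy⟩ := SylowTools.sylow_conj Q P
    refine ⟨y, ?_⟩
    rw [mem_centralizer_iff]
    intro z hz
    have h1 := hQ ((hy z).1 hz)
    have h2 := mem_cz.1 h1
    calc z * (y * g * y⁻¹) = y * ((y⁻¹ * z * y) * g) * y⁻¹ := by group
      _ = y * (g * (y⁻¹ * z * y)) * y⁻¹ := by rw [h2]
      _ = y * g * y⁻¹ * z := by group
  obtain ⟨c, hc⟩ := conj_top hs P.not_dvd_index hx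
  rw [← conj_mem_center_iff (g := c), mem_center_iff]
  intro g
  have h1 : g ∈ centralizer ((P : Subgroup G) : Set G) := by rw [hcov]; trivial
  exact (mem_centralizer_iff.1 h1 _ hc).symm

theorem dvd_nm_of_sel (h : Dat G n m) {s : ℕ} (hs : s.Prime) {x : G} (hx : SEl s x) (hxc : x ∉ center G) :
    s ∣ n * m := by
  by_contra hcon
  exact hxc (h.center_of_not_dvd hs hcon hx)

end Dat

/-- every element commutes with a noncentral `s`-element -/
def PP (G : Type*) [Group G] (s : ℕ) : Prop := ∀ g : G, ∃ u ∈ cz g, u ∉ center G ∧ SEl s u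

theorem Dat.PP_of {n m : ℕ} [Finite G] (h : Dat G n m) {s : ℕ} (hs : s.Prime) {g u : G} (hu : u ∈ cz g)
    (huz : u ∉ center G) (hus : SEl s u) {k : ℕ} (hk : ci g * k = n * m) (hsk : ¬ s ∣ k) : PP G s := by
  intro g'
  apply exists_sel_of_dvd hs
  have h1 := relIndex_mul g
  have h2 := relIndex_mul g'
  obtain ⟨l, hl⟩ := h.dvd_nm g'
  have h3 := dvd_of_sel hs hu huz hus
  have h4 : (center G).relIndex (cz g) * l = (center G).relIndex (cz g') * k := by
    have h5 : (center G).relIndex (cz g) * l * (n * m) = (center G).relIndex (cz g') * k * (n * m) := by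
      calc (center G).relIndex (cz g) * l * (n * m) = ((center G).relIndex (cz g) * ci g) * (k * l) := by
            rw [← hk]; ring
        _ = ((center G).relIndex (cz g') * ci g') * (k * l) := by rw [h1, h2]
        _ = (center G).relIndex (cz g') * k * (ci g' * l) := by ring
        _ = _ := by rw [← hl]
    have h6 : 0 < n * m := Nat.mul_pos (by have := h.hn; omega) (by have := h.hm; omega)
    exact Nat.eq_of_mul_eq_mul_right h6 h5
  have h7 : s ∣ (center G).relIndex (cz g') * k := h4 ▸ (h3.mul_right l)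
  exact (hs.dvd_mul.1 h7).resolve_right hsk

end Cfsg.Agent.Lib.FourSizes
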