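import Mathlib
import Cfsg.Agent.Lib.FourSizes1

/-!
Class sizes `1, n, m, n * m`: the case in which no element of prime power order is of "type I".
-/

set_option autoImplicit false

namespace Cfsg.Agent.Lib.FourSizes

open Subgroup

variable {G : Type*} [Group G] {n m : ℕ}

/-- no type I elements -/
structure Dat2 (G : Type*) [Group G] (n m : ℕ) : Prop extends Dat G n m where
  nt1 : ∀ (p : ℕ) (x : G), p.Prime → SEl p x → ci x = n → ¬ p ∣ n
  nt2 : ∀ (p : ℕ) (x : G), p.Prime → SEl p x → ci x = m → ¬ p ∣ m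

namespace Dat2

theorem symm (h : Dat2 G n m) : Dat2 G m n where
  toDat := h.toDat.symm
  nt1 := h.nt2
  nt2 := h.nt1

theorem ci_of_sel (h : Dat2 G n m) {s : ℕ} (hs : s.Prime) (hsm : s ∣ m) {u : G} (hu : SEl s u)
    (huz : u ∉ center G) : ci u = n ∨ ci u = n * m := by
  rcases h.all u with h1 | h1 | h1 | h1
  · exact absurd (ci_eq_one.1 h1) huz
  · exact Or.inl h1
  · exact absurd hsm (h.nt2 s u hs hu h1)
  · exact Or.inr h1

variable [Finite G]

theorem exists_n (h : Dat2 G n m) {s : ℕ} (hs : s.Prime) (hsm : s ∣ m) (hP : PP G s) :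
    ∃ x : G, SEl s x ∧ ci x = n := by
  by_contra hcon
  push Not at hcon
  obtain ⟨p, x, hp, hx, hxn⟩ := h.exists_primary
  have hps : p ≠ s := by
    rintro rfl
    exact hcon x hx hxn
  have hsn : ¬ s ∣ n := h.not_dvd_n hs hsm
  have hcov : cz x = ⊤ := by
    apply H70Basic.eq_top_of_forall_conj_mem
    intro g
    obtain ⟨u, hu, huz, hus⟩ := hP g
    obtain ⟨c, hc⟩ := conj_top hs (H := cz x) (by rw [show (cz x).index = n from hxn]; exact hsn) hus
    refine ⟨c, ?_⟩
    have h1 : ci (c * u * c⁻¹) = n * m := by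
      rw [ci_conj]
      exact (h.ci_of_sel hs hsm hus huz).resolve_left (hcon u hus)
    have h2 : cz (c * u * c⁻¹) ≤ cz x :=
      h.nm_le h1 (mem_cz_comm.1 hc) (sel_cop hs (sel_conj hus c) (sel_not_dvd hs hp hps hx))
    apply h2
    rw [mem_cz_conj]
    have : c⁻¹ * (c * g * c⁻¹) * c = g := by group
    rw [this]
    exact mem_cz_comm.1 hu
  have h3 : ci x = 1 := by rw [ci, hcov, index_top]
  have := h.hn
  omega

/-- conjugates of `x` inside the centralizer of an `s`-element -/
theorem exists_conj_comm (_h : Dat2 G n m) {s : ℕ} (hs : s.Prime) (hsn : ¬ s ∣ n) {x u : G} (hxn : ci x = n)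
    (hus : SEl s u) : ∃ t : G, t * x * t⁻¹ ∈ cz u := by
  obtain ⟨c, hc⟩ := conj_top hs (H := cz x) (by rw [show (cz x).index = n from hxn]; exact hsn) hus
  refine ⟨c⁻¹, ?_⟩
  rw [mem_cz_comm, mem_cz_conj]
  simpa using hc

/-- covering lemma -/
theorem covering (h : Dat2 G n m) {s : ℕ} (hs : s.Prime) (hsm : s ∣ m) (hP : PP G s) {x : G} (hx : SEl s x)
    (hxn : ci x = n) (C : Subgroup G)
    (hC : ∀ u : G, SEl s u → ci u = n → ∃ t : G, ∀ c ∈ cz u, t * c * t⁻¹ ∈ C) : C = ⊤ := by
  have := Fact.mk hs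
  have hsn : ¬ s ∣ n := h.not_dvd_n hs hsm
  apply H70Basic.eq_top_of_forall_conj_mem
  intro g
  obtain ⟨e, f, hef⟩ := PPart.exists_isRegExp s hs G
  set v := g ^ e with hv
  set w := g ^ f with hw
  have hg : v * w = g := hef.mul_eq g
  have hvreg : ¬ s ∣ orderOf v := hef.reg g
  have hws : SEl s w := hef.sing g
  have hcomm : Commute v w := (Commute.refl g).pow_pow e f
  -- step 1
  have step1 : ∃ x' : G, SEl s x' ∧ ci x' = n ∧ v ∈ cz x' := by
    obtain ⟨u, hu, huz, hus⟩ := hP v
    rcases h.ci_of_sel hs hsm hus huz with h1 | h1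
    · exact ⟨u, hus, h1, mem_cz_comm.1 hu⟩
    · obtain ⟨t, ht⟩ := h.exists_conj_comm hs hsn hxn hus
      refine ⟨t * x * t⁻¹, sel_conj hx t, by rw [ci_conj, hxn], ?_⟩
      have h2 : cz u ≤ cz v := h.nm_le h1 (mem_cz_comm.1 hu) (sel_cop hs hus hvreg)
      exact mem_cz_comm.1 (h2 ht)
  -- it suffices to find a conjugate of `g` commuting with an element of class size `n`
  suffices hsuff : ∃ (c x' : G), SEl s x' ∧ ci x' = n ∧ c * g * c⁻¹ ∈ cz x' by
    obtain ⟨c, x', hx', hx'n, hc⟩ := hsuff
    obtain ⟨t, ht⟩ := hC x' hx' hx'n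
    refine ⟨t * c, ?_⟩
    have := ht _ hc
    have h2 : t * (c * g * c⁻¹) * t⁻¹ = t * c * g * (t * c)⁻¹ := by group
    rwa [h2] at this
  by_cases hsv : s ∣ ci v
  · obtain ⟨x', hx', hx'n, hvx⟩ := step1
    have hmv : m ∣ ci v := by
      rcases h.eq_of_s_dvd hs hsm hsv with h1 | h1
      · rw [h1]
      · rw [h1]; exact dvd_mul_left _ _
    have h1 : ci (x' * v) = n * m := h.ci_mul_nm hx'n hvx (sel_cop hs hx' hvreg) hmv
    have h2 : cz (x' * v) = cz x' ⊓ cz v := cz_mul hvx (sel_cop hs hx' hvreg)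
    have h3 : cz (x' * v) ≤ cz v := by rw [h2]; exact inf_le_right
    have h4 : ¬ s ∣ (cz (x' * v)).relIndex (cz v) := by
      have h5 := Subgroup.relIndex_mul_index h3
      rw [show (cz (x' * v)).index = n * m from h1] at h5
      obtain ⟨l, hl⟩ := hmv
      have h6 : (cz (x' * v)).relIndex (cz v) ∣ n := by
        refine ⟨l, ?_⟩
        have h7 : (cz (x' * v)).relIndex (cz v) * l * m = n * m := by
          rw [← h5, show (cz v).index = m * l from hl]; ring
        exact (Nat.eq_of_mul_eq_mul_right (by have := h.hm; omega) h7).symm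
      exact fun h7 => hsn (h7.trans h6)
    obtain ⟨c, hc, hc2⟩ := conj_rel hs h3 h4 (mem_cz.2 hcomm.eq.symm) hws
    refine ⟨c, x', hx', hx'n, ?_⟩
    have h5 : c * g * c⁻¹ = v * (c * w * c⁻¹) := by
      rw [← hg]
      have := mem_cz.1 hc
      calc c * (v * w) * c⁻¹ = (c * v) * w * c⁻¹ := by group
        _ = (v * c) * w * c⁻¹ := by rw [this]
        _ = _ := by group
    rw [h5]
    rw [h2] at hc2
    exact mul_mem hvx hc2.1
  · -- the centralizer of `v` contains a Sylow subgroup containing `w`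
    obtain ⟨P, hwP, hPv, hP1, hP2⟩ := SylowTools.exists_sylow_of_subgroup (p := s) (K := cz v) (H := zpowers w)
      (by rw [zpowers_le]; exact mem_cz.2 hcomm.eq.symm) (sel_ispgroup hws)
    have hPi : ¬ s ∣ P.index := by
      rw [← Subgroup.relIndex_mul_index hPv]
      intro h1
      rcases hs.dvd_mul.1 h1 with h1 | h1
      · exact hP2 h1
      · exact hsv h1
    obtain ⟨Q, hxQ, hQx, hQ1, hQ2⟩ := SylowTools.exists_sylow_of_subgroup (p := s) (K := cz x) (H := zpowers x)
      (by rw [zpowers_le]; exact mem_cz.2 rfl) (sel_ispgroup hx)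
    have hQi : ¬ s ∣ Q.index := by
      rw [← Subgroup.relIndex_mul_index hQx]
      intro h1
      rcases hs.dvd_mul.1 h1 with h1 | h1
      · exact hQ2 h1
      · rw [show (cz x).index = n from hxn] at h1
        exact hsn h1
    -- conjugate `P` into `Q`
    obtain ⟨t, -, ht⟩ := SylowTools.conj_into_of_sylow_of_subgroup (K := ⊤) (P := Q) (H := P) le_top hQ1
      (by rw [relIndex_top_right]; exact hQi) le_top hP1
    have hmap : P.map (MulAut.conj t).toMonoidHom = Q := by
      apply Subgroup.eq_of_le_of_card_ge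
      · intro y hy
        obtain ⟨z, hz, rfl⟩ := hy
        exact ht z hz
      · rw [Subgroup.card_map_of_injective (MulAut.conj t).injective]
        -- cards equal since both are Sylow
        obtain ⟨P', hP'⟩ : ∃ P' : Sylow s G, (P' : Subgroup G) = P :=
          ⟨hP1.toSylow hPi, rfl⟩
        obtain ⟨Q', hQ'⟩ : ∃ Q' : Sylow s G, (Q' : Subgroup G) = Q :=
          ⟨hQ1.toSylow hQi, rfl⟩
        have h1 := P'.card_eq_multiplicity
        have h2 := Q'.card_eq_multiplicity
        rw [hP'] at h1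
        rw [hQ'] at h2
        rw [h1, h2]
    have hxt : t⁻¹ * x * t ∈ P := by
      have : x ∈ P.map (MulAut.conj t).toMonoidHom := by
        rw [hmap]; exact hxQ (mem_zpowers x)
      rwa [SylowTools.mem_map_conj_iff] at this
    have hxP : ∀ y ∈ P, y ∈ cz (t⁻¹ * x * t) := by
      intro y hy
      have h1 := hQx (ht y hy)
      have h2 : t⁻¹ * x * t = t⁻¹ * x * (t⁻¹)⁻¹ := by group
      rw [h2, mem_cz_conj]
      simpa using h1
    refine ⟨1, t⁻¹ * x * t, ?_, ?_, ?_⟩
    · have := sel_conj hx t⁻¹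
      simpa using this
    · have := ci_conj x t⁻¹
      simp only [inv_inv] at this
      rw [this, hxn]
    · simp only [one_mul, inv_one, mul_one]
      rw [← hg]
      exact mul_mem (mem_cz_comm.1 (hPv hxt)) (hxP w (hwP (mem_zpowers w)))

/-- `m` has no prime divisor other than `s` -/
theorem eq_of_prime_dvd (h : Dat2 G n m) {s : ℕ} (hs : s.Prime) (hsm : s ∣ m) (hP : PP G s) {r : ℕ}
    (hr : r.Prime) (hrm : r ∣ m) : r = s := by
  by_contra hrs
  have := Fact.mk hs
  have := Fact.mk hr
  have hsn : ¬ s ∣ n := h.not_dvd_n hs hsm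
  have hrn : ¬ r ∣ n := h.not_dvd_n hr hrm
  obtain ⟨x, hx, hxn⟩ := h.exists_n hs hsm hP
  -- an r-element of class size n
  have hz : ∃ z : G, SEl r z ∧ ci z = n := by
    by_contra hcon
    push Not at hcon
    -- there is a noncentral r-element
    have h1 : ∃ z : G, SEl r z ∧ z ∉ center G := by
      by_contra hcon2
      push Not at hcon2
      obtain ⟨g, hg⟩ := h.exm
      obtain ⟨R⟩ : Nonempty (Sylow r G) := inferInstance
      have h2 : (R : Subgroup G) ≤ cz g := by
        intro y hy
        have h3 := hcon2 y (sel_of_mem R.isPGroup' hy)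
        rw [mem_cz]
        exact (mem_center_iff.1 h3 g).symm
      have h3 := index_dvd_of_le h2
      rw [show (cz g).index = m from hg] at h3
      exact R.not_dvd_index (hrm.trans h3)
    obtain ⟨z, hz, hzc⟩ := h1
    have h2 : ci z = n * m := (h.ci_of_sel hr hrm hz hzc).resolve_left (hcon z hz)
    have h3 : PP G r := h.PP_of hr (g := z) (u := z) (mem_cz.2 rfl) hzc hz (k := 1) (by rw [h2, mul_one])
      (fun h4 => hr.one_lt.ne' (Nat.dvd_one.1 h4))
    obtain ⟨z', hz', hz'n⟩ := h.exists_n hr hrm h3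
    exact hcon z' hz' hz'n
  obtain ⟨z, hz, hzn⟩ := hz
  have hcov : cz z = ⊤ := by
    apply h.covering hs hsm hP hx hxn
    intro u hu hun
    -- a Sylow r-subgroup R of cz z contains z, and is Sylow in G; conjugate it into cz u
    obtain ⟨R, hzR, hRz, hR1, hR2⟩ := SylowTools.exists_sylow_of_subgroup (p := r) (K := cz z) (H := zpowers z)
      (by rw [zpowers_le]; exact mem_cz.2 rfl) (sel_ispgroup hz)
    have hRi : ¬ r ∣ R.index := by
      rw [← Subgroup.relIndex_mul_index hRz]
      intro h1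
      rcases hr.dvd_mul.1 h1 with h1 | h1
      · exact hR2 h1
      · rw [show (cz z).index = n from hzn] at h1
        exact hrn h1
    obtain ⟨T, -, hTu, hT1, hT2⟩ := SylowTools.exists_sylow_of_subgroup (p := r) (K := cz u) (H := ⊥) bot_le
      (IsPGroup.of_bot)
    have hTi : ¬ r ∣ T.index := by
      rw [← Subgroup.relIndex_mul_index hTu]
      intro h1
      rcases hr.dvd_mul.1 h1 with h1 | h1
      · exact hT2 h1
      · rw [show (cz u).index = n from hun] at h1
        exact hrn h1
    obtain ⟨t, -, ht⟩ := SylowTools.conj_into_of_sylow_of_subgroup (K := ⊤) (P := T) (H := R) le_top hT1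
      (by rw [relIndex_top_right]; exact hTi) le_top hR1
    set z' := t * z * t⁻¹ with hz'
    have hz'u : z' ∈ cz u := hTu (ht z (hzR (mem_zpowers z)))
    have hz's : SEl r z' := sel_conj hz t
    have hz'n : ci z' = n := by rw [hz', ci_conj, hzn]
    have hco : (orderOf u).Coprime (orderOf z') := sel_cop hs hu (sel_not_dvd hs hr hrs hz's)
    have h1 : ci (u * z') = n := by
      rcases h.ci_mul_n hun hz'u hco with h1 | h1
      · exact h1
      · exfalso
        -- R^t lies in cz u ⊓ cz z'
        have h2 : R.map (MulAut.conj t).toMonoidHom ≤ cz (u * z') := by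
          rw [cz_mul hz'u hco]
          intro y hy
          obtain ⟨w, hw, rfl⟩ := hy
          refine ⟨hTu (ht w hw), ?_⟩
          show t * w * t⁻¹ ∈ cz z'
          rw [hz', mem_cz_conj]
          have h3 : t⁻¹ * (t * w * t⁻¹) * t = w := by group
          rw [h3]
          exact hRz hw
        have h3 := index_dvd_of_le h2
        have h4 : (R.map (MulAut.conj t).toMonoidHom).index = R.index := Subgroup.index_map_equiv R (MulAut.conj t)
        rw [h4, show (cz (u * z')).index = n * m from h1] at h3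
        exact hRi ((hrm.mul_left n).trans h3)
    have h2 : cz (u * z') = cz u := cz_eq (by rw [cz_mul hz'u hco]; exact inf_le_left) (by rw [h1, hun])
    have h3 : cz u ≤ cz z' := by
      rw [← h2, cz_mul hz'u hco]; exact inf_le_right
    refine ⟨t⁻¹, fun c hc => ?_⟩
    have h4 := h3 hc
    rw [hz', mem_cz_conj] at h4
    simpa using h4
  have h3 : ci z = 1 := by rw [ci, hcov, index_top]
  have := h.hn
  omega

end Dat2

end Cfsg.Agent.Lib.FourSizes
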