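import Mathlib
import Cfsg.Agent.Lib.FourSizes2

/-!
Class sizes `1, n, m, n * m`: no type I elements, continued.
-/

set_option autoImplicit false

namespace Cfsg.Agent.Lib.FourSizes

open Subgroup

variable {G : Type*} [Group G] {n m : ℕ}

section

variable [Finite G]

theorem spow {s : ℕ} (hs : s.Prime) {H D : Subgroup G} (hHD : H ≤ D)
    (h : ∀ y ∈ D, ¬ s ∣ orderOf y → y ∈ H) : ∃ j, H.relIndex D = s ^ j := by
  refine ⟨_, Nat.eq_prime_pow_of_unique_prime_dvd ?_ ?_⟩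
  · exact (H.subgroupOf D).index_ne_zero_of_finite
  · intro r hr hd
    by_contra hrs
    have := Fact.mk hr
    obtain ⟨T, -, hTD, hT1, hT2⟩ := SylowTools.exists_sylow_of_subgroup (p := r) (K := D) (H := ⊥) bot_le
      (IsPGroup.of_bot)
    have hTH : T ≤ H := fun y hy => h y (hTD hy) (sel_not_dvd hs hr hrs (sel_of_mem hT1 hy))
    apply hT2
    rw [← Subgroup.relIndex_mul_relIndex T H D hTH hHD]
    exact hd.mul_left _

/-- conjugating an `s`-element with class size prime to `s` into the centre of a given Sylow subgroup -/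
theorem exists_conj_central {s : ℕ} (hs : s.Prime) {x : G} (hx : SEl s x) (hi : ¬ s ∣ ci x) {S : Subgroup G}
    (hS : IsPGroup s S) (hSi : ¬ s ∣ S.index) : ∃ t : G, t * x * t⁻¹ ∈ S ∧ S ≤ cz (t * x * t⁻¹) := by
  have := Fact.mk hs
  obtain ⟨Q, hxQ, hQx, hQ1, hQ2⟩ := SylowTools.exists_sylow_of_subgroup (p := s) (K := cz x) (H := zpowers x)
    (by rw [zpowers_le]; exact mem_cz.2 rfl) (sel_ispgroup hx)
  have hQi : ¬ s ∣ Q.index := by
    rw [← Subgroup.relIndex_mul_index hQx]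
    intro h1
    rcases hs.dvd_mul.1 h1 with h1 | h1
    · exact hQ2 h1
    · exact hi h1
  obtain ⟨t, -, ht⟩ := SylowTools.conj_into_of_sylow_of_subgroup (K := ⊤) (P := S) (H := Q) le_top hS
    (by rw [relIndex_top_right]; exact hSi) le_top hQ1
  have hmap : Q.map (MulAut.conj t).toMonoidHom = S := by
    apply Subgroup.eq_of_le_of_card_ge
    · intro y hy
      obtain ⟨z, hz, rfl⟩ := hy
      exact ht z hz
    · rw [Subgroup.card_map_of_injective (MulAut.conj t).injective]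
      obtain ⟨P', hP'⟩ : ∃ P' : Sylow s G, (P' : Subgroup G) = Q := ⟨hQ1.toSylow hQi, rfl⟩
      obtain ⟨Q', hQ'⟩ : ∃ Q' : Sylow s G, (Q' : Subgroup G) = S := ⟨hS.toSylow hSi, rfl⟩
      have h1 := P'.card_eq_multiplicity
      have h2 := Q'.card_eq_multiplicity
      rw [hP'] at h1
      rw [hQ'] at h2
      rw [h1, h2]
  refine ⟨t, ht x (hxQ (mem_zpowers x)), fun y hy => ?_⟩
  rw [mem_cz_conj]
  rw [← hmap, SylowTools.mem_map_conj_iff] at hy
  exact hQx hy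

end

namespace Dat2

variable [Finite G]

theorem eq_pow (h : Dat2 G n m) {s : ℕ} (hs : s.Prime) (hsm : s ∣ m) (hP : PP G s) : ∃ b, m = s ^ b :=
  ⟨_, Nat.eq_prime_pow_of_unique_prime_dvd (by have := h.hm; omega)
    (fun {r} hr hrm => h.eq_of_prime_dvd hs hsm hP hr hrm)⟩

theorem no_nm (h : Dat2 G n m) {s : ℕ} (hs : s.Prime) (hsm : s ∣ m) (hP : PP G s) {w : G} (hw : SEl s w) :
    ci w ≠ n * m := by
  intro hwnm
  have := Fact.mk hs
  have hsn : ¬ s ∣ n := h.not_dvd_n hs hsm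
  obtain ⟨b, hb⟩ := h.eq_pow hs hsm hP
  obtain ⟨x, hx, hxn⟩ := h.exists_n hs hsm hP
  obtain ⟨S, hwS, -, hS1, hS2⟩ := SylowTools.exists_sylow_of_subgroup (p := s) (K := ⊤) (H := zpowers w)
    le_top (sel_ispgroup hw)
  rw [relIndex_top_right] at hS2
  obtain ⟨t₁, hx1, hx2⟩ := exists_conj_central hs hx (by rw [hxn]; exact hsn) hS1 hS2
  have hcov : cz x = ⊤ := by
    apply h.covering hs hsm hP hx hxn
    intro u hu hun
    obtain ⟨t₂, hu1, hu2⟩ := exists_conj_central hs hu (by rw [hun]; exact hsn) hS1 hS2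
    set x₁ := t₁ * x * t₁⁻¹ with hx₁
    set u₁ := t₂ * u * t₂⁻¹ with hu₁
    have hx₁n : ci x₁ = n := by rw [hx₁, ci_conj, hxn]
    have hu₁n : ci u₁ = n := by rw [hu₁, ci_conj, hun]
    have hwSmem : w ∈ S := hwS (mem_zpowers w)
    have hMi : ¬ s ∣ (cz x₁ ⊓ cz u₁).index := by
      intro h1
      exact hS2 (h1.trans (index_dvd_of_le (le_inf hx2 hu2)))
    obtain ⟨j, hj⟩ := spow hs (H := cz w ⊓ (cz x₁ ⊓ cz u₁)) (D := cz w) inf_le_left (by
      intro y hy hys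
      have h1 : cz w ≤ cz y := h.nm_le hwnm hy (sel_cop hs hw hys)
      refine ⟨hy, ?_, ?_⟩
      · exact mem_cz_comm.1 (h1 (mem_cz_comm.1 (hx2 hwSmem)))
      · exact mem_cz_comm.1 (h1 (mem_cz_comm.1 (hu2 hwSmem))))
    have h2 : (cz x₁ ⊓ cz u₁).index ∣ n := by
      have h3 : (cz x₁ ⊓ cz u₁).index ∣ (cz w ⊓ (cz x₁ ⊓ cz u₁)).index := index_dvd_of_le inf_le_right
      rw [← Subgroup.relIndex_mul_index (inf_le_left : cz w ⊓ (cz x₁ ⊓ cz u₁) ≤ cz w), hj,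
        show (cz w).index = n * m from hwnm, hb] at h3
      have h4 : s ^ j * (n * s ^ b) = n * s ^ (j + b) := by rw [pow_add]; ring
      rw [h4] at h3
      exact ((Nat.Coprime.pow_right (j + b) ((Nat.Prime.coprime_iff_not_dvd hs).2 hMi).symm)).dvd_of_dvd_mul_right h3
    have h3 : (cz x₁ ⊓ cz u₁).index = n := by
      apply Nat.dvd_antisymm h2
      rw [← hx₁n]
      exact index_dvd_of_le inf_le_left
    have h4 : cz x₁ ⊓ cz u₁ = cz x₁ := ItoTwoSizes.eq_of_le_of_index inf_le_left (by rw [h3]; exact hx₁n.symm)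
    have h5 : cz x₁ ⊓ cz u₁ = cz u₁ := ItoTwoSizes.eq_of_le_of_index inf_le_right (by rw [h3]; exact hu₁n.symm)
    have h6 : cz u₁ = cz x₁ := by rw [← h5, h4]
    refine ⟨t₁⁻¹ * t₂, fun c hc => ?_⟩
    have h7 : t₂ * c * t₂⁻¹ ∈ cz u₁ := by
      rw [hu₁, mem_cz_conj]
      have : t₂⁻¹ * (t₂ * c * t₂⁻¹) * t₂ = c := by group
      rwa [this]
    rw [h6, hx₁, mem_cz_conj] at h7
    have h8 : t₁⁻¹ * t₂ * c * (t₁⁻¹ * t₂)⁻¹ = t₁⁻¹ * (t₂ * c * t₂⁻¹) * t₁ := by group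
    rwa [h8]
  have h3 : ci x = 1 := by rw [ci, hcov, index_top]
  have := h.hn
  omega

theorem ci_n (h : Dat2 G n m) {s : ℕ} (hs : s.Prime) (hsm : s ∣ m) (hP : PP G s) {w : G} (hw : SEl s w)
    (hwc : w ∉ center G) : ci w = n :=
  (h.ci_of_sel hs hsm hw hwc).resolve_right (h.no_nm hs hsm hP hw)

theorem other (h : Dat2 G n m) {s : ℕ} (hs : s.Prime) (hsm : s ∣ m) (hP : PP G s) :
    ∃ q, q.Prime ∧ q ∣ n ∧ PP G q := by
  obtain ⟨q, y, hq, hy, hym⟩ := h.symm.exists_primary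
  have hqm : ¬ q ∣ m := h.nt2 q y hq hy hym
  have hyc : y ∉ center G := h.notc_m hym
  have hqn : q ∣ n := (hq.dvd_mul.1 (h.dvd_nm_of_sel hq hy hyc)).resolve_right hqm
  refine ⟨q, hq, hqn, ?_⟩
  obtain ⟨u, hu, huc, hus⟩ := hP y
  have hun := h.ci_n hs hsm hP hus huc
  exact h.PP_of hq (g := u) (u := y) (mem_cz_comm.1 hu) hyc hy (k := m) (by rw [hun]) hqm

end Dat2

/-- the final configuration -/
structure Dat3 (G : Type*) [Group G] (s q n m : ℕ) : Prop where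
  hs : s.Prime
  hq : q.Prime
  hsq : s ≠ q
  hn : 1 < n
  hm : 1 < m
  hnq : ∃ a, n = q ^ a
  hms : ∃ b, m = s ^ b
  cs : ∀ u : G, SEl s u → u ∉ center G → ci u = n
  cq : ∀ u : G, SEl q u → u ∉ center G → ci u = m
  ps : PP G s
  pq : PP G q
  oth : ∀ (r : ℕ) (x : G), r.Prime → r ≠ s → r ≠ q → SEl r x → x ∈ center G

theorem Dat3.symm {s q : ℕ} (h : Dat3 G s q n m) : Dat3 G q s m n where
  hs := h.hq
  hq := h.hs
  hsq := h.hsq.symm
  hn := h.hm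
  hm := h.hn
  hnq := h.hms
  hms := h.hnq
  cs := h.cq
  cq := h.cs
  ps := h.pq
  pq := h.ps
  oth := fun r x hr h1 h2 hx => h.oth r x hr h2 h1 hx

theorem Dat2.toDat3 [Finite G] (h : Dat2 G n m) {s : ℕ} (hs : s.Prime) (hsm : s ∣ m) (hP : PP G s) :
    ∃ q, Dat3 G s q n m := by
  obtain ⟨q, hq, hqn, hPq⟩ := h.other hs hsm hP
  have hsn : ¬ s ∣ n := h.not_dvd_n hs hsm
  obtain ⟨b, hb⟩ := h.eq_pow hs hsm hP
  obtain ⟨a, ha⟩ := h.symm.eq_pow hq hqn hPq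
  refine ⟨q, ⟨hs, hq, ?_, h.hn, h.hm, ⟨a, ha⟩, ⟨b, hb⟩, fun u hu huc => h.ci_n hs hsm hP hu huc,
    fun u hu huc => h.symm.ci_n hq hqn hPq hu huc, hP, hPq, ?_⟩⟩
  · rintro rfl
    exact hsn hqn
  · intro r x hr hrs hrq hx
    apply h.center_of_not_dvd hr ?_ hx
    intro hd
    rcases hr.dvd_mul.1 hd with h1 | h1
    · rw [ha] at h1
      exact hrq ((Nat.prime_dvd_prime_iff_eq hr hq).1 (hr.dvd_of_dvd_pow h1))
    · rw [hb] at h1
      exact hrs ((Nat.prime_dvd_prime_iff_eq hr hs).1 (hr.dvd_of_dvd_pow h1))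

theorem Dat2.exists_dat3 [Finite G] (h : Dat2 G n m) : ∃ s q n m, Dat3 G s q n m := by
  obtain ⟨g, hg⟩ := h.exnm
  obtain ⟨s, k, j, hs, hk, hj⟩ := MinNonNilp.exists_prime_power_order (center G) (h.notc_nm hg)
  have hP : PP G s := h.PP_of hs (g := g) (u := g ^ j) (by
    rw [mem_cz]; exact ((Commute.refl g).pow_left j).eq) hj ⟨k, hk⟩ (k := 1) (by rw [hg, mul_one])
    (fun h4 => hs.one_lt.ne' (Nat.dvd_one.1 h4))
  rcases hs.dvd_mul.1 (h.dvd_nm_of_sel hs ⟨k, hk⟩ hj) with h1 | h1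
  · obtain ⟨q, hq⟩ := h.symm.toDat3 hs h1 hP
    exact ⟨_, _, _, _, hq⟩
  · obtain ⟨q, hq⟩ := h.toDat3 hs h1 hP
    exact ⟨_, _, _, _, hq⟩

end Cfsg.Agent.Lib.FourSizes
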