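import Mathlib
import Cfsg.Agent.Lib.FourSizes3
import Cfsg.Agent.Lib.Burnside
import Cfsg.Agent.Lib.Fitting
import Cfsg.Agent.Lib.WSup
import Cfsg.Agent.Lib.CoprimeAction2

/-!
Class sizes `1, n, m, n * m`: the final contradiction for groups without type I elements.
-/

set_option autoImplicit false

namespace Cfsg.Agent.Lib.FourSizes

open Subgroup Cfsg Cfsg.Agent.Lib.Fitting Cfsg.Agent.Lib.CoprimeAction2

universe u

section

variable {G : Type u} [Group G] [Finite G]

theorem sylow_comm [Group.IsSolvable G] {s : ℕ} [hs : Fact s.Prime] (h : ∀ u : G, SEl s u → ¬ s ∣ ci u)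
    (S : Sylow s G) : ∀ a ∈ (S : Subgroup G), ∀ b ∈ (S : Subgroup G), a * b = b * a := by
  have hKn : (pPrimeCore s G).Normal := normal_pPrimeCore s
  have hsol : Group.IsSolvable (G ⧸ pPrimeCore s G) :=
    Group.isSolvable_of_surjective (f := QuotientGroup.mk' (pPrimeCore s G)) (QuotientGroup.mk'_surjective _)
  have hC := centralizer_pCore_le_of_solvable (G := G ⧸ pPrimeCore s G) s (pPrimeCore_quotient_pPrimeCore s)
  have hN : (pCore s (G ⧸ pPrimeCore s G)).Normal := normal_pCore s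
  set π := QuotientGroup.mk' (pPrimeCore s G) with hπ
  have hle : pCore s (G ⧸ pPrimeCore s G) ≤ (S : Subgroup G).map π := by
    have := pCore_le_sylow s (S.mapSurjective (QuotientGroup.mk'_surjective (pPrimeCore s G)))
    rwa [Sylow.coe_mapSurjective] at this
  have hCn : (centralizer (pCore s (G ⧸ pPrimeCore s G) : Set (G ⧸ pPrimeCore s G))).Normal := inferInstance
  have key : ∀ u ∈ (S : Subgroup G), π u ∈ centralizer (pCore s (G ⧸ pPrimeCore s G) : Set (G ⧸ pPrimeCore s G)) := by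
    intro u hu
    have hus : SEl s u := sel_of_mem S.isPGroup' hu
    obtain ⟨t, ht1, ht2⟩ := exists_conj_central hs.out hus (h u hus) S.isPGroup' S.not_dvd_index
    have h1 : π (t * u * t⁻¹) ∈ centralizer (pCore s (G ⧸ pPrimeCore s G) : Set (G ⧸ pPrimeCore s G)) := by
      rw [mem_centralizer_iff]
      intro y hy
      obtain ⟨z, hz, rfl⟩ := hle hy
      rw [← map_mul, ← map_mul, mem_cz.1 (ht2 hz)]
    have h2 := hCn.conj_mem _ h1 (π t)⁻¹
    simpa [mul_assoc] using h2
  intro a ha b hb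
  have h1 := mem_centralizer_iff.1 (key b hb) _ (hC (key a ha))
  rw [← map_mul, ← map_mul] at h1
  have h2 : (b * a)⁻¹ * (a * b) ∈ pPrimeCore s G := (QuotientGroup.eq (s := pPrimeCore s G)).1 h1.symm
  have h3 := WSup.eq_one_of_mem_pPrimeCore S.isPGroup' (mul_mem (inv_mem (mul_mem hb ha)) (mul_mem ha hb)) h2
  exact (inv_mul_eq_one.1 h3).symm

/-- an `r`-element of the Fitting subgroup lies in `O_r(G)` -/
theorem mem_pCore_of_fitting {r : ℕ} (hr : r.Prime) {f : G} (hf : f ∈ fittingSubgroup G) (hfr : SEl r f) :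
    f ∈ pCore r G := by
  have := Fact.mk hr
  have hFn : (fittingSubgroup G).Normal := normal_fittingSubgroup
  have hFnil : Group.IsNilpotent (fittingSubgroup G) := isNilpotent_fittingSubgroup
  have h1 : IsPGroup r (zpowers (⟨f, hf⟩ : fittingSubgroup G)) := by
    obtain ⟨k, hk⟩ := hfr
    exact IsPGroup.of_card (n := k) (by rw [Nat.card_zpowers, Subgroup.orderOf_mk]; exact hk)
  obtain ⟨P, hP⟩ := h1.exists_le_sylow
  have hPn : (P : Subgroup (fittingSubgroup G)).Normal := inferInstance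
  have hPc : (P : Subgroup (fittingSubgroup G)).Characteristic := P.characteristic_of_normal hPn
  have h2 : (P : Subgroup (fittingSubgroup G)).map (fittingSubgroup G).subtype ≤ pCore r G :=
    le_pCore r inferInstance (P.2.map _)
  exact h2 ⟨⟨f, hf⟩, hP (mem_zpowers _), rfl⟩

/-- index of the intersection with a Sylow subgroup -/
theorem relIndex_sylow {q a : ℕ} [hq : Fact q.Prime] {H : Subgroup G} (hH : H.index = q ^ a) (Q : Sylow q G) :
    H.relIndex (Q : Subgroup G) = q ^ a := by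
  apply Nat.dvd_antisymm
  · have h1 : ∀ k, H.relIndex (Q : Subgroup G) = k → k ≤ q ^ a ∧ ∃ j, k = q ^ j := by
      intro k hk
      refine ⟨?_, ?_⟩
      · rw [← hk, ← hH, ← relIndex_top_right H]
        exact Subgroup.relIndex_le_of_le_right le_top (by
          rw [relIndex_top_right]; exact H.index_ne_zero_of_finite)
      · have h2 : k ∣ Nat.card (Q : Subgroup G) := by
          rw [← hk]; exact Subgroup.relIndex_dvd_card H _
        obtain ⟨c, hc⟩ := IsPGroup.iff_card.1 Q.isPGroup'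
        rw [hc] at h2
        obtain ⟨j, _, hj⟩ := (Nat.dvd_prime_pow hq.out).1 h2
        exact ⟨j, hj⟩
    obtain ⟨h2, j, hj⟩ := h1 _ rfl
    rw [hj] at h2 ⊢
    exact pow_dvd_pow q ((Nat.pow_le_pow_iff_right hq.out.one_lt).1 h2)
  · have h1 : (H ⊓ (Q : Subgroup G)).index = H.relIndex (Q : Subgroup G) * (Q : Subgroup G).index := by
      rw [← Subgroup.relIndex_mul_index (inf_le_right : H ⊓ (Q : Subgroup G) ≤ Q), Subgroup.inf_relIndex_right]
    have h2 : H.index ∣ (H ⊓ (Q : Subgroup G)).index := index_dvd_of_le inf_le_left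
    rw [h1, hH] at h2
    exact (Nat.Coprime.pow_left a ((Nat.Prime.coprime_iff_not_dvd hq.out).2 Q.not_dvd_index)).dvd_of_dvd_mul_right h2

theorem inf_eq_of_relIndex {A B Q : Subgroup G} (h : A ⊓ Q ≤ B ⊓ Q) (hi : A.relIndex Q = B.relIndex Q) :
    B ⊓ Q ≤ A ⊓ Q := by
  have h1 : (A ⊓ Q).index = (B ⊓ Q).index := by
    rw [← Subgroup.relIndex_mul_index (inf_le_right : A ⊓ Q ≤ Q),
      ← Subgroup.relIndex_mul_index (inf_le_right : B ⊓ Q ≤ Q), Subgroup.inf_relIndex_right,
      Subgroup.inf_relIndex_right, hi]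
  exact (ItoTwoSizes.eq_of_le_of_index h h1).ge

end

namespace Dat3

variable {G : Type u} [Group G] [Finite G] {s q n m : ℕ}

theorem solvable (h : Dat3 G s q n m) : Group.IsSolvable G := by
  have hpr : ∀ r, r.Prime → r ∣ (center G).index → r = s ∨ r = q := by
    intro r hr hd
    by_contra hcon
    push Not at hcon
    obtain ⟨y, -, hy, hys⟩ := exists_sel_of_dvd (G := G) (H := (⊤ : Subgroup G)) hr
      (by rw [relIndex_top_right]; exact hd)
    exact hy (h.oth r y hr hcon.1 hcon.2 hys)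
  have h0 : (center G).index ≠ 0 := (center G).index_ne_zero_of_finite
  set N := (center G).index with hN
  have h1 : s ^ N.factorization s * (N / s ^ N.factorization s) = N := Nat.ordProj_mul_ordCompl_eq_self N s
  have h2 : ∃ b, N / s ^ N.factorization s = q ^ b := by
    refine ⟨_, Nat.eq_prime_pow_of_unique_prime_dvd ?_ ?_⟩
    · intro h3
      rw [h3, mul_zero] at h1
      exact h0 h1.symm
    · intro r hr hd
      rcases hpr r hr (hd.trans ⟨s ^ N.factorization s, by rw [mul_comm]; exact h1.symm⟩) with h3 | h3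
      · subst h3
        exact absurd hd (Nat.not_dvd_ordCompl hr h0)
      · exact h3
  obtain ⟨b, hb⟩ := h2
  rw [hb] at h1
  have h3 : Group.IsSolvable (G ⧸ center G) :=
    Burnside.isSolvable_of_card_eq N s q (N.factorization s) b h.hs h.hq
      (by rw [← Subgroup.index_eq_card, ← hN, h1]) (by rw [← Subgroup.index_eq_card])
  have h4 : Group.IsSolvable (center G) :=
    Group.isSolvable_of_comm (fun a b => Subtype.ext ((mem_center_iff.1 b.2 a)))
  exact Group.isSolvable_of_ker_le_range (center G).subtype (QuotientGroup.mk' (center G)) (by simp)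

theorem comm_s (h : Dat3 G s q n m) [hs : Fact s.Prime] (S : Sylow s G) :
    ∀ a ∈ (S : Subgroup G), ∀ b ∈ (S : Subgroup G), a * b = b * a := by
  have := h.solvable
  apply sylow_comm
  intro u hu hd
  by_cases huc : u ∈ center G
  · rw [ci_eq_one.2 huc] at hd
    exact hs.out.one_lt.ne' (Nat.dvd_one.1 hd)
  · rw [h.cs u hu huc] at hd
    obtain ⟨a, ha⟩ := h.hnq
    rw [ha] at hd
    exact h.hsq ((Nat.prime_dvd_prime_iff_eq hs.out h.hq).1 (hs.out.dvd_of_dvd_pow hd))

/-- an element centralizing `O_s(G)` and `O_q(G)` lies in the Fitting subgroup -/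
theorem mem_fitting (h : Dat3 G s q n m) {c : G} (h1 : ∀ x ∈ pCore s G, x * c = c * x)
    (h2 : ∀ x ∈ pCore q G, x * c = c * x) : c ∈ fittingSubgroup G := by
  have hsol := h.solvable
  apply centralizer_fittingSubgroup_le
  rw [mem_centralizer_iff]
  intro f hf
  by_contra hcon
  have hf' : f ∉ cz c := fun h3 => hcon (mem_cz.1 h3)
  obtain ⟨r, k, j, hr, hk, hj⟩ := MinNonNilp.exists_prime_power_order (cz c) hf'
  have hfj : f ^ j ∈ fittingSubgroup G := pow_mem hf j
  have h3 := mem_pCore_of_fitting hr hfj ⟨k, hk⟩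
  apply hj
  rw [mem_cz]
  by_cases hrs : r = s
  · subst hrs; exact h1 _ h3
  by_cases hrq : r = q
  · subst hrq; exact h2 _ h3
  exact (mem_center_iff.1 (h.oth r _ hr hrs hrq ⟨k, hk⟩) c).symm

/-- `O_s(G)` or `O_q(G)` is not central -/
theorem exists_noncentral (h : Dat3 G s q n m) :
    (∃ x ∈ pCore s G, x ∉ center G) ∨ (∃ x ∈ pCore q G, x ∉ center G) := by
  by_contra hcon
  push Not at hcon
  have htop : ∀ c : G, c ∈ fittingSubgroup G := fun c =>
    h.mem_fitting (fun x hx => (mem_center_iff.1 (hcon.1 x hx) c).symm)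
      (fun x hx => (mem_center_iff.1 (hcon.2 x hx) c).symm)
  obtain ⟨u, -, huc, hus⟩ := h.ps 1
  exact huc (hcon.1 u (mem_pCore_of_fitting h.hs (htop u) hus))

/-- for `u ∈ O_s(G)` noncentral, `C_Q(u) = O_q(G)` -/
theorem claim1 (h : Dat3 G s q n m) [hs : Fact s.Prime] [hq : Fact q.Prime] (Q : Sylow q G) {u : G}
    (hu : u ∈ pCore s G) (huc : u ∉ center G) {y : G} (hyQ : y ∈ (Q : Subgroup G)) (hyu : y ∈ cz u) :
    y ∈ pCore q G := by
  obtain ⟨S⟩ : Nonempty (Sylow s G) := inferInstance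
  have hNS : pCore s G ≤ S := pCore_le_sylow s S
  have hTQ : pCore q G ≤ Q := pCore_le_sylow q Q
  have hScomm := h.comm_s S
  have hQcomm := h.symm.comm_s Q
  have hNn : (pCore s G).Normal := normal_pCore s
  have hNp : IsPGroup s (pCore s G) := isPGroup_pCore s
  obtain ⟨a, ha⟩ := h.hnq
  have hsel : ∀ x ∈ pCore s G, SEl s x := fun x hx => sel_of_mem hNp hx
  have hrel : ∀ x ∈ pCore s G, x ∉ center G → (cz x).relIndex (Q : Subgroup G) = q ^ a := by
    intro x hx hxc
    exact relIndex_sylow (by rw [← ha]; exact h.cs x (hsel x hx) hxc) Q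
  have hVc : IsMulCommutative (pCore s G) :=
    ⟨⟨fun x z => Subtype.ext (hScomm x (hNS x.2) z (hNS z.2))⟩⟩
  have hAV : zpowers y ≤ normalizer (pCore s G : Set G) := by
    rw [normalizer_eq_top_iff.2 hNn]; exact le_top
  have hysel : SEl q y := sel_of_mem Q.isPGroup' hyQ
  have hcop : (Nat.card (zpowers y)).Coprime (Nat.card (pCore s G)) := by
    obtain ⟨k, hk⟩ := hysel
    obtain ⟨j, hj⟩ := IsPGroup.iff_card.1 hNp
    rw [Nat.card_zpowers, hk, hj]
    exact Nat.Coprime.pow _ _ ((Nat.coprime_primes hq.out hs.out).2 h.hsq.symm)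
  have hinf := inf_commutator_eq_bot_of_abelian hAV hcop
  -- y centralizes N
  have hyN : ∀ x ∈ pCore s G, x * y = y * x := by
    by_contra hcon
    have h1 : ⁅pCore s G, zpowers y⁆ ≠ ⊥ := by
      intro h2
      rw [commutator_eq_bot_iff_le_centralizer] at h2
      apply hcon
      intro x hx
      exact (mem_centralizer_iff.1 (h2 hx) y (mem_zpowers y)).symm
    obtain ⟨w, hw, hw1⟩ : ∃ w, w ∈ ⁅pCore s G, zpowers y⁆ ∧ w ≠ 1 := by
      by_contra h3
      push Not at h3
      exact h1 ((Subgroup.eq_bot_iff_forall _).2 h3)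
    have hwN : w ∈ pCore s G := (commutator_le_left (pCore s G) (zpowers y)) hw
    have hmemC : ∀ z : G, z ∈ centralizer (zpowers y : Set G) ↔ y * z = z * y := by
      intro z
      rw [Subgroup.mem_centralizer_iff]
      constructor
      · intro h2; exact h2 y (mem_zpowers y)
      · intro h2 g hg
        obtain ⟨k, rfl⟩ := mem_zpowers_iff.1 hg
        exact ((show Commute y z from h2).zpow_left k).eq
    have hwy : ∀ z ∈ ⁅pCore s G, zpowers y⁆, y * z = z * y → z = 1 := by
      intro z hz hz2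
      have h2 : z ∈ (pCore s G ⊓ centralizer (zpowers y : Set G)) ⊓ ⁅pCore s G, zpowers y⁆ :=
        ⟨⟨(commutator_le_left (pCore s G) (zpowers y)) hz, (hmemC z).2 hz2⟩, hz⟩
      rw [hinf] at h2
      exact mem_bot.1 h2
    have hwc : w ∉ center G := fun h2 => hw1 (hwy w hw (mem_center_iff.1 h2 y))
    -- elements of Q commuting with u * w commute with u and w
    have hsplit : ∀ v ∈ (Q : Subgroup G), v ∈ cz (u * w) → v ∈ cz u ∧ v ∈ cz w := by
      intro v hvQ hv
      have hvy : v * y = y * v := hQcomm v hvQ y hyQ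
      have huv : v * u * v⁻¹ ∈ pCore s G := hNn.conj_mem u hu v
      have hwv : v * w * v⁻¹ ∈ ⁅pCore s G, zpowers y⁆ := by
        have h2 : ⁅pCore s G, zpowers y⁆.map (MulAut.conj v).toMonoidHom = ⁅pCore s G, zpowers y⁆ := by
          rw [Subgroup.map_commutator]
          congr 1
          · exact SylowTools.map_conj_eq_of_mem_normalizer (by rw [normalizer_eq_top_iff.2 hNn]; trivial)
          · rw [MonoidHom.map_zpowers]
            congr 1
            show v * y * v⁻¹ = y
            rw [hvy]; group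
        rw [← h2]
        exact ⟨w, hw, rfl⟩
      have h3 : u⁻¹ * (v * u * v⁻¹) = w * (v * w * v⁻¹)⁻¹ := by
        have h4 := mem_cz.1 hv
        have h5 : (v * u * v⁻¹) * (v * w * v⁻¹) = u * w := by
          calc (v * u * v⁻¹) * (v * w * v⁻¹) = (v * (u * w)) * v⁻¹ := by group
            _ = (u * w * v) * v⁻¹ := by rw [h4]
            _ = u * w := by group
        calc u⁻¹ * (v * u * v⁻¹) = u⁻¹ * ((v * u * v⁻¹) * (v * w * v⁻¹)) * (v * w * v⁻¹)⁻¹ := by group
          _ = u⁻¹ * (u * w) * (v * w * v⁻¹)⁻¹ := by rw [h5]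
          _ = _ := by group
      have hmem : u⁻¹ * (v * u * v⁻¹) ∈ ⁅pCore s G, zpowers y⁆ := by
        rw [h3]; exact mul_mem hw (inv_mem hwv)
      have hyu' : y * u = u * y := mem_cz.1 hyu
      have h4 : u⁻¹ * (v * u * v⁻¹) = 1 := by
        apply hwy _ hmem
        have c1 : Commute y u := hyu'
        have c2 : Commute y v := hvy.symm
        exact (c1.inv_right.mul_right ((c2.mul_right c1).mul_right c2.inv_right)).eq
      have h5 : v * u * v⁻¹ = u := by
        have := congrArg (fun z => u * z) h4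
        simpa [mul_assoc] using this
      have h6 : v * w * v⁻¹ = w := by
        rw [h4] at h3
        have := congrArg (fun z => z * (v * w * v⁻¹)) h3
        simpa [mul_assoc] using this
      exact ⟨mem_cz.2 (mul_inv_eq_iff_eq_mul.1 h5), mem_cz.2 (mul_inv_eq_iff_eq_mul.1 h6)⟩
    have huwN : u * w ∈ pCore s G := mul_mem hu hwN
    have huwc : u * w ∉ center G := by
      intro h2
      have h3 : y ∈ cz (u * w) := mem_cz.2 (mem_center_iff.1 h2 y)
      exact hw1 (hwy w hw (mem_cz.1 (hsplit y hyQ h3).2))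
    have hle : cz (u * w) ⊓ (Q : Subgroup G) ≤ cz u ⊓ (Q : Subgroup G) :=
      fun v hv => ⟨(hsplit v hv.2 hv.1).1, hv.2⟩
    have h2 := inf_eq_of_relIndex hle (by rw [hrel _ huwN huwc, hrel _ hu huc])
    have h3 : y ∈ cz (u * w) := (h2 ⟨hyu, hyQ⟩).1
    exact hw1 (hwy w hw (mem_cz.1 (hsplit y hyQ h3).2))
  have hyF : y ∈ fittingSubgroup G :=
    h.mem_fitting hyN (fun x hx => hQcomm x (hTQ hx) y hyQ)
  exact mem_pCore_of_fitting hq.out hyF hysel

/-- a `q`-element commuting with an `s`-element `u` is conjugate in `C(u)` into `Q` -/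
theorem conj_Q (h : Dat3 G s q n m) [hq : Fact q.Prime] (Q : Sylow q G) {u v : G} (hu : SEl s u)
    (huc : u ∉ center G) (hv : SEl q v) (hvu : v ∈ cz u) : ∃ c ∈ cz u, c * v * c⁻¹ ∈ (Q : Subgroup G) := by
  obtain ⟨a, ha⟩ := h.hnq
  have h1 : (cz u).relIndex (Q : Subgroup G) = q ^ a :=
    relIndex_sylow (by rw [← ha]; exact h.cs u hu huc) Q
  have h2 : ¬ q ∣ (cz u ⊓ (Q : Subgroup G)).relIndex (cz u) := by
    have h3 : (cz u ⊓ (Q : Subgroup G)).relIndex (cz u) * (cz u).index =
        (cz u).relIndex (Q : Subgroup G) * (Q : Subgroup G).index := by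
      rw [Subgroup.relIndex_mul_index (inf_le_left : cz u ⊓ (Q : Subgroup G) ≤ cz u),
        ← Subgroup.relIndex_mul_index (inf_le_right : cz u ⊓ (Q : Subgroup G) ≤ Q), Subgroup.inf_relIndex_right]
    rw [h1, show (cz u).index = n from h.cs u hu huc, ha, mul_comm] at h3
    have h4 : (cz u ⊓ (Q : Subgroup G)).relIndex (cz u) = (Q : Subgroup G).index :=
      Nat.eq_of_mul_eq_mul_left (pow_pos hq.out.pos a) h3
    rw [h4]
    exact Q.not_dvd_index
  obtain ⟨c, hc, hc2⟩ := conj_rel hq.out (inf_le_left : cz u ⊓ (Q : Subgroup G) ≤ cz u) h2 hvu hv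
  exact ⟨c, hc, hc2.2⟩

/-- the contradiction when `O_s(G)` is not central -/
theorem false_of (h : Dat3 G s q n m) {u : G} (hu : u ∈ pCore s G) (huc : u ∉ center G) : False := by
  have hs := Fact.mk h.hs
  have hq := Fact.mk h.hq
  obtain ⟨S⟩ : Nonempty (Sylow s G) := inferInstance
  obtain ⟨Q⟩ : Nonempty (Sylow q G) := inferInstance
  have hNS : pCore s G ≤ S := pCore_le_sylow s S
  have hTQ : pCore q G ≤ Q := pCore_le_sylow q Q
  have hScomm := h.comm_s S
  have hQcomm := h.symm.comm_s Q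
  have hNn : (pCore s G).Normal := normal_pCore s
  have hTn : (pCore q G).Normal := normal_pCore q
  have hNp : IsPGroup s (pCore s G) := isPGroup_pCore s
  have hus : SEl s u := sel_of_mem hNp hu
  -- a noncentral element of `O_q(G)`
  obtain ⟨t, ht, htc⟩ : ∃ t ∈ pCore q G, t ∉ center G := by
    obtain ⟨v, hv, hvc, hvs⟩ := h.pq u
    obtain ⟨c, hc, hc2⟩ := h.conj_Q Q hus huc hvs hv
    refine ⟨c * v * c⁻¹, h.claim1 Q hu huc hc2 (mul_mem (mul_mem hc hv) (inv_mem hc)), ?_⟩
    rwa [conj_mem_center_iff]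
  have hts : SEl q t := sel_of_mem (isPGroup_pCore q) ht
  -- S is not contained in N
  obtain ⟨x, hxS, hxN⟩ : ∃ x ∈ (S : Subgroup G), x ∉ pCore s G := by
    by_contra hcon
    push Not at hcon
    have h1 : (S : Subgroup G) ≤ cz t := by
      intro y hy
      rw [mem_cz]
      -- N and T commute
      have hd : Disjoint (pCore s G) (pCore q G) :=
        IsPGroup.disjoint_of_ne s q h.hsq _ _ hNp (isPGroup_pCore q)
      exact Subgroup.commute_of_normal_of_disjoint _ _ hNn hTn hd y t (hcon y hy) ht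
    have h2 := index_dvd_of_le h1
    rw [show (cz t).index = m from h.cq t hts htc] at h2
    obtain ⟨b, hb⟩ := h.hms
    have hb0 : b ≠ 0 := by
      rintro rfl
      rw [pow_zero] at hb
      have := h.hm
      omega
    exact S.not_dvd_index (((dvd_pow_self s hb0).trans (by rw [hb])).trans h2)
  have hxcF : ∀ x ∈ (S : Subgroup G), x ∉ pCore s G → x ∉ center G := by
    intro x hx hxN hxc
    apply hxN
    have h1 : IsPGroup s (zpowers x) := sel_ispgroup (sel_of_mem S.isPGroup' hx)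
    have h2 : (zpowers x).Normal := by
      refine ⟨fun y hy g => ?_⟩
      obtain ⟨k, rfl⟩ := mem_zpowers_iff.1 hy
      have h3 : g * x ^ k * g⁻¹ = x ^ k := by
        have := mem_center_iff.1 (zpow_mem hxc k) g
        rw [this]; group
      rw [h3]; exact zpow_mem (mem_zpowers x) k
    exact le_pCore s h2 h1 (mem_zpowers x)
  -- every x ∈ S \ N commutes with an element of Q \ T
  have hex : ∀ x ∈ (S : Subgroup G), x ∉ pCore s G → ∃ v ∈ (Q : Subgroup G), v ∉ pCore q G ∧ v ∈ cz x := by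
    intro x hx hxN
    have hxs : SEl s x := sel_of_mem S.isPGroup' hx
    have hxc := hxcF x hx hxN
    obtain ⟨v, hv, hvc, hvs⟩ := h.pq x
    obtain ⟨c, hc, hc2⟩ := h.conj_Q Q hxs hxc hvs hv
    refine ⟨c * v * c⁻¹, hc2, ?_, mul_mem (mul_mem hc hv) (inv_mem hc)⟩
    intro hT
    -- then x ∈ C_S(t') = N
    apply hxN
    exact h.symm.claim1 S hT (by rwa [conj_mem_center_iff]) hx
      (mem_cz_comm.1 (mul_mem (mul_mem hc hv) (inv_mem hc)))
  obtain ⟨v, hvQ, hvT, hvx⟩ := hex x hxS hxN
  have hysel : SEl q v := sel_of_mem Q.isPGroup' hvQ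
  have hVc : IsMulCommutative (pCore s G) :=
    ⟨⟨fun x z => Subtype.ext (hScomm x (hNS x.2) z (hNS z.2))⟩⟩
  have hAV : zpowers v ≤ normalizer (pCore s G : Set G) := by
    rw [normalizer_eq_top_iff.2 hNn]; exact le_top
  have hcop : (Nat.card (zpowers v)).Coprime (Nat.card (pCore s G)) := by
    obtain ⟨k, hk⟩ := hysel
    obtain ⟨j, hj⟩ := IsPGroup.iff_card.1 hNp
    rw [Nat.card_zpowers, hk, hj]
    exact Nat.Coprime.pow _ _ ((Nat.coprime_primes hq.out hs.out).2 h.hsq.symm)
  have hinf := inf_commutator_eq_bot_of_abelian hAV hcop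
  have hmemC : ∀ z : G, z ∈ centralizer (zpowers v : Set G) ↔ v * z = z * v := by
    intro z
    rw [Subgroup.mem_centralizer_iff]
    constructor
    · intro h2; exact h2 v (mem_zpowers v)
    · intro h2 g hg
      obtain ⟨k, rfl⟩ := mem_zpowers_iff.1 hg
      exact ((show Commute v z from h2).zpow_left k).eq
  have hwv : ∀ z ∈ ⁅pCore s G, zpowers v⁆, v * z = z * v → z = 1 := by
    intro z hz hz2
    have h2 : z ∈ (pCore s G ⊓ centralizer (zpowers v : Set G)) ⊓ ⁅pCore s G, zpowers v⁆ :=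
      ⟨⟨(commutator_le_left (pCore s G) (zpowers v)) hz, (hmemC z).2 hz2⟩, hz⟩
    rw [hinf] at h2
    exact mem_bot.1 h2
  have h1 : ⁅pCore s G, zpowers v⁆ ≠ ⊥ := by
    intro h2
    rw [commutator_eq_bot_iff_le_centralizer] at h2
    apply hvT
    exact h.claim1 Q hu huc hvQ (mem_cz.2 ((mem_centralizer_iff.1 (h2 hu) v (mem_zpowers v))))
  obtain ⟨w, hw, hw1⟩ : ∃ w, w ∈ ⁅pCore s G, zpowers v⁆ ∧ w ≠ 1 := by
    by_contra h3
    push Not at h3
    exact h1 ((Subgroup.eq_bot_iff_forall _).2 h3)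
  have hwN : w ∈ pCore s G := (commutator_le_left (pCore s G) (zpowers v)) hw
  have hwc : w ∉ center G := fun h2 => hw1 (hwv w hw (mem_center_iff.1 h2 v))
  have hxwS : x * w ∈ (S : Subgroup G) := mul_mem hxS (hNS hwN)
  have hxwN : x * w ∉ pCore s G := by
    intro h2
    apply hxN
    have := mul_mem h2 (inv_mem hwN)
    simpa using this
  obtain ⟨v', hv'Q, hv'T, hv'x⟩ := hex (x * w) hxwS hxwN
  -- computation
  have hvv : v' * v = v * v' := hQcomm v' hv'Q v hvQ
  have hwv' : v' * w * v'⁻¹ ∈ ⁅pCore s G, zpowers v⁆ := by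
    have h2 : ⁅pCore s G, zpowers v⁆.map (MulAut.conj v').toMonoidHom = ⁅pCore s G, zpowers v⁆ := by
      rw [Subgroup.map_commutator]
      congr 1
      · exact SylowTools.map_conj_eq_of_mem_normalizer (by rw [normalizer_eq_top_iff.2 hNn]; trivial)
      · rw [MonoidHom.map_zpowers]
        congr 1
        show v' * v * v'⁻¹ = v
        rw [hvv]; group
    rw [← h2]
    exact ⟨w, hw, rfl⟩
  have h3 : x⁻¹ * (v' * x * v'⁻¹) = w * (v' * w * v'⁻¹)⁻¹ := by
    have h4 := mem_cz.1 hv'x
    have h5 : (v' * x * v'⁻¹) * (v' * w * v'⁻¹) = x * w := by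
      calc (v' * x * v'⁻¹) * (v' * w * v'⁻¹) = (v' * (x * w)) * v'⁻¹ := by group
        _ = (x * w * v') * v'⁻¹ := by rw [h4]
        _ = x * w := by group
    calc x⁻¹ * (v' * x * v'⁻¹) = x⁻¹ * ((v' * x * v'⁻¹) * (v' * w * v'⁻¹)) * (v' * w * v'⁻¹)⁻¹ := by group
      _ = x⁻¹ * (x * w) * (v' * w * v'⁻¹)⁻¹ := by rw [h5]
      _ = _ := by group
  have hmem : x⁻¹ * (v' * x * v'⁻¹) ∈ ⁅pCore s G, zpowers v⁆ := by
    rw [h3]; exact mul_mem hw (inv_mem hwv')
  have h4 : x⁻¹ * (v' * x * v'⁻¹) = 1 := by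
    apply hwv _ hmem
    have c1 : Commute v x := mem_cz.1 hvx
    have c2 : Commute v v' := hvv.symm
    exact (c1.inv_right.mul_right ((c2.mul_right c1).mul_right c2.inv_right)).eq
  have h6 : v' * w * v'⁻¹ = w := by
    rw [h4] at h3
    have := congrArg (fun z => z * (v' * w * v'⁻¹)) h3
    simpa [mul_assoc] using this
  exact hv'T (h.claim1 Q hwN hwc hv'Q (mem_cz.2 (mul_inv_eq_iff_eq_mul.1 h6)))

theorem false (h : Dat3 G s q n m) : False := by
  rcases h.exists_noncentral with ⟨u, hu, huc⟩ | ⟨u, hu, huc⟩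
  · exact h.false_of hu huc
  · exact h.symm.false_of hu huc

end Dat3

theorem Dat2.false {G : Type u} [Group G] [Finite G] {n m : ℕ} (h : Dat2 G n m) : False := by
  obtain ⟨s, q, n, m, h3⟩ := h.exists_dat3
  exact h3.false

end Cfsg.Agent.Lib.FourSizes
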