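import Mathlib
import Cfsg.Agent.Lib.FourSizes4
import Cfsg.Agent.Lib.PNilp
import Cfsg.Agent.S4134

/-!
Class sizes `1, n, m, n * m`: type I elements and the theorem.
-/

set_option autoImplicit false

namespace Cfsg.Agent.Lib.FourSizes

open Subgroup Cfsg Cfsg.Agent.Lib.CoprimeAction2

universe u

variable {G : Type u} [Group G]

structure TIdat (p : ℕ) (x : G) (m : ℕ) (K P : Subgroup G) : Prop where
  Kle : K ≤ cz x
  Ple : P ≤ cz x
  memK : ∀ y ∈ cz x, ¬ p ∣ orderOf y → y ∈ K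
  ordK : ∀ y ∈ K, ¬ p ∣ orderOf y
  memP : ∀ y ∈ cz x, SEl p y → y ∈ P
  pP : IsPGroup p P
  comm : ∀ a ∈ P, ∀ k ∈ K, a * k = k * a
  dec : ∀ y ∈ cz x, ∃ a ∈ P, ∃ k ∈ K, y = a * k
  sizes : ∀ k ∈ K, (cz k).relIndex K = 1 ∨ (cz k).relIndex K = m

section

variable [Finite G] {n m : ℕ}

theorem cent_comap {C : Subgroup G} (w : C) : centralizer ({w} : Set C) = (cz (w : G)).comap C.subtype := by
  ext y
  rw [mem_centralizer_singleton_iff, mem_comap, mem_cz, Subtype.ext_iff]
  rfl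

theorem ti (h : Dat G n m) {p : ℕ} {x : G} (hp : p.Prime) (hpn : p ∣ n) (hx : SEl p x) (hxn : ci x = n) :
    ∃ K P : Subgroup G, TIdat p x m K P := by
  have := Fact.mk hp
  have hpm : ¬ p ∣ m := h.symm.not_dvd_n hp hpn
  have hn0 : 0 < n := by have := h.hn; omega
  have hsz : ∀ w : cz x, ¬ p ∣ orderOf w →
      (centralizer ({w} : Set (cz x))).index = 1 ∨ (centralizer ({w} : Set (cz x))).index = m := by
    intro w hw
    rw [← Subgroup.orderOf_coe] at hw
    have h1 : (centralizer ({w} : Set (cz x))).index * n = ci (x * (w : G)) := by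
      rw [ci, cz_mul w.2 (sel_cop hp hx hw), ← Subgroup.relIndex_mul_index (inf_le_left : cz x ⊓ cz (w : G) ≤ cz x),
        show (cz x).index = n from hxn, cent_comap, Subgroup.inf_relIndex_left]
      rfl
    rcases h.ci_mul_n hxn w.2 (sel_cop hp hx hw) with h2 | h2
    · left
      rw [h2] at h1
      exact Nat.eq_of_mul_eq_mul_right hn0 (by rw [h1, one_mul])
    · right
      rw [h2, mul_comm n m] at h1
      exact Nat.eq_of_mul_eq_mul_right hn0 h1
  obtain ⟨P⟩ : Nonempty (Sylow p (cz x)) := inferInstance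
  obtain ⟨hPn, N, hNn, hNP, hNc, hN⟩ := DirectSylow.direct_factor (G := cz x) (p := p) (by
    intro w hw hd
    rcases hsz w hw with h1 | h1
    · rw [h1] at hd
      exact hp.one_lt.ne' (Nat.dvd_one.1 hd)
    · rw [h1] at hd; exact hpm hd) P
  have hcop : ∀ k : ℕ, k.Coprime p ↔ ¬ p ∣ k := fun k => by
    rw [Nat.coprime_comm, Nat.Prime.coprime_iff_not_dvd hp]
  have hcomm : ∀ a ∈ (P : Subgroup (cz x)), ∀ k ∈ N, a * k = k * a := by
    intro a ha k hk
    exact mem_centralizer_iff.1 (hNc hk) a ha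
  refine ⟨N.map (cz x).subtype, (P : Subgroup (cz x)).map (cz x).subtype, ?_⟩
  constructor
  · exact map_subtype_le _
  · exact map_subtype_le _
  · intro y hy hd
    refine ⟨⟨y, hy⟩, (hN ⟨y, hy⟩).2 ?_, rfl⟩
    rw [hcop, Subgroup.orderOf_mk]
    exact hd
  · rintro _ ⟨y, hy, rfl⟩
    have h1 := (hcop _).1 ((hN y).1 hy)
    rw [← Subgroup.orderOf_coe] at h1
    exact h1
  · intro y hy hyp
    have h1 : IsPGroup p (zpowers (⟨y, hy⟩ : cz x)) := by
      obtain ⟨k, hk⟩ := hyp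
      exact IsPGroup.of_card (n := k) (by rw [Nat.card_zpowers, Subgroup.orderOf_mk]; exact hk)
    obtain ⟨R, hR⟩ := h1.exists_le_sylow
    have hRP : R = P := by
      have := Sylow.unique_of_normal P hPn
      exact Subsingleton.elim R P
    exact ⟨⟨y, hy⟩, by rw [← hRP]; exact hR (mem_zpowers _), rfl⟩
  · exact P.isPGroup'.map _
  · rintro _ ⟨a, ha, rfl⟩ _ ⟨k, hk, rfl⟩
    have := hcomm a ha k hk
    exact congrArg (fun z : cz x => (z : G)) this
  · intro y hy
    have h1 : (⟨y, hy⟩ : cz x) ∈ N ⊔ (P : Subgroup (cz x)) := by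
      rw [hNP.sup_eq_top]; trivial
    rw [sup_comm, SylowTools.mem_sup_normal_iff] at h1
    obtain ⟨a, ha, k, hk, hak⟩ := h1
    exact ⟨a, ⟨a, ha, rfl⟩, k, ⟨k, hk, rfl⟩, congrArg (fun z : cz x => (z : G)) hak.symm⟩
  · rintro _ ⟨k, hk, rfl⟩
    have h0 : ¬ p ∣ orderOf k := (hcop _).1 ((hN k).1 hk)
    rw [show ((cz ((cz x).subtype k)).relIndex (N.map (cz x).subtype)) =
      ((cz ((k : cz x) : G)).comap (cz x).subtype).relIndex N from (Subgroup.relIndex_comap _ _ _).symm,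
      ← cent_comap]
    have h1 : (centralizer ({k} : Set (cz x))) ⊔ N = ⊤ := by
      rw [eq_top_iff, ← hNP.sup_eq_top]
      apply sup_le le_sup_right
      refine le_sup_of_le_left ?_
      intro a ha
      exact mem_centralizer_singleton_iff.2 (hcomm a ha k hk)
    have h2 : N.relIndex (centralizer ({k} : Set (cz x)) ⊔ N) = N.relIndex (centralizer ({k} : Set (cz x))) :=
      Subgroup.relIndex_sup_right _ _
    rw [h1, relIndex_top_right] at h2
    have h3 : (centralizer ({k} : Set (cz x)) ⊓ N).relIndex N * N.index =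
        (centralizer ({k} : Set (cz x)) ⊓ N).relIndex (centralizer ({k} : Set (cz x))) *
          (centralizer ({k} : Set (cz x))).index := by
      rw [Subgroup.relIndex_mul_index inf_le_right, Subgroup.relIndex_mul_index inf_le_left]
    rw [Subgroup.inf_relIndex_right, Subgroup.inf_relIndex_left, ← h2, mul_comm] at h3
    have h4 : (centralizer ({k} : Set (cz x))).relIndex N = (centralizer ({k} : Set (cz x))).index :=
      Nat.eq_of_mul_eq_mul_left (Nat.pos_of_ne_zero N.index_ne_zero_of_finite) h3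
    rw [h4]
    exact hsz k h0

theorem ito_sub {K : Subgroup G} {m : ℕ} (hm : 1 < m)
    (hs : ∀ k ∈ K, (cz k).relIndex K = 1 ∨ (cz k).relIndex K = m) :
    (∀ a ∈ K, ∀ b ∈ K, a * b = b * a) ∨
      (∃ s a, s.Prime ∧ m = s ^ a ∧ ∀ l ∈ K, ∀ p, p.Prime → p ≠ s → SEl p l → ∀ k ∈ K, l * k = k * l) := by
  by_cases hex : ∃ k ∈ K, (cz k).relIndex K = m
  · right
    obtain ⟨k₀, hk₀, hk₀m⟩ := hex
    have hidx : ∀ k : K, (centralizer ({k} : Set K)).index = (cz (k : G)).relIndex K := by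
      intro k
      rw [cent_comap]
      rfl
    obtain ⟨s, hs', a, ha, hP⟩ := S4134.result (G := K) m hm (fun k => by rw [hidx]; exact hs k k.2)
      ⟨⟨k₀, hk₀⟩, by rw [hidx]; exact hk₀m⟩
    refine ⟨s, a, hs'.out, ha, ?_⟩
    intro l hl p hp hps hlp k hk
    obtain ⟨P⟩ : Nonempty (Sylow s K) := inferInstance
    obtain ⟨hPn, ⟨N, hNn, hNP, hNc, hNPc⟩, -⟩ := hP P
    have hdec : ∀ y : K, ∃ a ∈ N, ∃ b ∈ (P : Subgroup K), a * b = y := by
      intro y
      have h1 : y ∈ (P : Subgroup K) ⊔ N := by rw [sup_comm, hNP.sup_eq_top]; trivial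
      rw [SylowTools.mem_sup_normal_iff] at h1
      obtain ⟨b, hb, a, ha, hab⟩ := h1
      exact ⟨a, ha, b, hb, by rw [hNPc a ha b hb]; exact hab⟩
    -- l lies in N
    obtain ⟨c, hc, d, hd, hcd⟩ := hdec ⟨l, hl⟩
    obtain ⟨e, he⟩ := hlp
    have hcd' : Commute c d := hNPc c hc d hd
    have h1 : (⟨l, hl⟩ : K) ^ p ^ e = 1 := by
      apply Subtype.ext
      show l ^ p ^ e = 1
      rw [← he]; exact pow_orderOf_eq_one l
    rw [← hcd, hcd'.mul_pow] at h1
    have h2 : d ^ p ^ e ∈ N := by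
      have : d ^ p ^ e = (c ^ p ^ e)⁻¹ := (inv_eq_of_mul_eq_one_right h1).symm
      rw [this]; exact inv_mem (pow_mem hc _)
    have h3 : d ^ p ^ e = 1 := by
      have h4 : d ^ p ^ e ∈ N ⊓ (P : Subgroup K) := ⟨h2, pow_mem hd _⟩
      rw [hNP.disjoint.eq_bot] at h4
      exact mem_bot.1 h4
    have h4 : d = 1 := by
      obtain ⟨f, hf⟩ := sel_of_mem P.isPGroup' hd
      have h5 := orderOf_dvd_of_pow_eq_one h3
      rw [hf] at h5
      have h6 : s ^ f = 1 :=
        Nat.eq_one_of_dvd_coprimes (Nat.Coprime.pow f e ((Nat.coprime_primes hs'.out hp).2 hps.symm)) dvd_rfl h5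
      rw [← hf] at h6
      exact orderOf_eq_one_iff.1 h6
    rw [h4, mul_one] at hcd
    obtain ⟨c', hc', d', hd', hcd''⟩ := hdec ⟨k, hk⟩
    have h5 : c * (c' * d') = (c' * d') * c := by
      have e1 : Commute c c' := by
        have := hNc.is_comm.comm ⟨c, hc⟩ ⟨c', hc'⟩
        exact congrArg (fun z : N => (z : K)) this
      have e2 : Commute c d' := hNPc c hc d' hd'
      exact (e1.mul_right e2).eq
    rw [hcd'', hcd] at h5
    exact congrArg (fun z : K => (z : G)) h5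
  · left
    push Not at hex
    intro a ha b hb
    have h1 := (hs b hb).resolve_right (hex b hb)
    rw [Subgroup.relIndex_eq_one] at h1
    exact mem_cz.1 (h1 ha)

/-- Camina's Theorem 1 -/
theorem t1 {q : ℕ} (hq : q.Prime) {y : G} (hy : SEl q y) {b : ℕ} (hyb : ci y = q ^ b) {n : ℕ}
    {L P : Subgroup G} (hL : TIdat q y n L P) :
    L.Normal ∧ (∃ j, L.index = q ^ j) ∧ ¬ q ∣ Nat.card L ∧ ∀ z : G, ¬ q ∣ orderOf z → z ∈ L := by
  have := Fact.mk hq
  have hLq : ¬ q ∣ Nat.card L := by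
    intro hd
    obtain ⟨z, hz⟩ := exists_prime_orderOf_dvd_card' q hd
    apply hL.ordK z z.2
    rw [Subgroup.orderOf_coe, hz]
  have hidx : ∃ j, L.index = q ^ j := by
    obtain ⟨j, hj⟩ := spow hq hL.Kle (fun z hz hz2 => hL.memK z hz hz2)
    refine ⟨j + b, ?_⟩
    rw [← Subgroup.relIndex_mul_index hL.Kle, hj, show (cz y).index = q ^ b from hyb, pow_add]
  -- the normal closure of y is a q-group
  obtain ⟨Q, hyQ, -, hQ1, hQ2⟩ := SylowTools.exists_sylow_of_subgroup (p := q) (K := ⊤) (H := zpowers y)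
    le_top (sel_ispgroup hy)
  have hVQ : normalClosure ({y} : Set G) ≤ Q := by
    rw [normalClosure, closure_le]
    intro z hz
    rw [Group.mem_conjugatesOfSet_iff] at hz
    obtain ⟨w, hw, hwz⟩ := hz
    rw [Set.mem_singleton_iff] at hw
    subst hw
    obtain ⟨g, rfl⟩ := isConj_iff.1 hwz
    obtain ⟨a, ha, c, hc, hac⟩ := exists_mul_of_coprime_relIndex (H := cz w) (P := Q) (K := ⊤) le_top le_top (by
      rw [relIndex_top_right (H := cz w), show (cz w).index = q ^ b from hyb]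
      exact (Nat.Coprime.pow_left b ((Nat.Prime.coprime_iff_not_dvd hq).2 hQ2)).symm) (mem_top g)
    have h1 : g * w * g⁻¹ = a * w * a⁻¹ := by
      rw [← hac]
      have h2 := mem_cz.1 hc
      calc a * c * w * (a * c)⁻¹ = a * (c * w) * c⁻¹ * a⁻¹ := by group
        _ = a * (w * c) * c⁻¹ * a⁻¹ := by rw [h2]
        _ = a * w * a⁻¹ := by group
    rw [h1]
    exact mul_mem (mul_mem ha (hyQ (mem_zpowers w))) (inv_mem ha)
  set V := normalClosure ({y} : Set G) with hV
  have hVn : V.Normal := normalClosure_normal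
  have hVp : IsPGroup q V := hQ1.to_le hVQ
  have hyV : y ∈ V := subset_normalClosure (Set.mem_singleton y)
  have hLV : L ≤ centralizer (V : Set G) := by
    refine thompson_PxQ (P := zpowers y) (Q := L) (sel_ispgroup hy)
      ((Nat.Prime.coprime_iff_not_dvd hq).2 hLq).symm ?_ (Nat.card V) V rfl hVp ?_ ?_ ?_
    · rw [zpowers_le, mem_centralizer_iff]
      intro l hl
      exact mem_cz.1 (hL.Kle hl)
    · rw [normalizer_eq_top_iff.2 hVn]; exact le_top
    · rw [normalizer_eq_top_iff.2 hVn]; exact le_top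
    · rintro v ⟨hv1, hv2⟩
      rw [mem_centralizer_iff]
      intro l hl
      have h1 : v ∈ cz y := by
        rw [mem_cz]
        exact (mem_centralizer_iff.1 hv2 y (mem_zpowers y)).symm
      exact (hL.comm v (hL.memP v h1 (sel_of_mem hVp hv1)) l hl).symm
  have hLn : L.Normal := by
    refine ⟨fun l hl g => ?_⟩
    have hCn : (centralizer (V : Set G)).Normal := inferInstance
    have h1 := hCn.conj_mem l (hLV hl) g
    have h2 : g * l * g⁻¹ ∈ cz y := by
      rw [mem_cz]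
      exact (mem_centralizer_iff.1 h1 y hyV).symm
    apply hL.memK _ h2
    rw [SylowTools.orderOf_conj']
    exact hL.ordK l hl
  refine ⟨hLn, hidx, hLq, ?_⟩
  intro z hz
  obtain ⟨j, hj⟩ := hidx
  have h1 : ((z : G) : G ⧸ L) ^ q ^ j = 1 := by
    have : Nat.card (G ⧸ L) = q ^ j := by rw [← Subgroup.index_eq_card, hj]
    rw [← this]
    exact pow_card_eq_one'
  have h2 : ((z : G) : G ⧸ L) ^ orderOf z = 1 := by
    rw [← QuotientGroup.mk_pow, pow_orderOf_eq_one]; rfl
  have h3 : orderOf ((z : G) : G ⧸ L) ∣ 1 := by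
    have h4 : (q ^ j).Coprime (orderOf z) := Nat.Coprime.pow_left j ((Nat.Prime.coprime_iff_not_dvd hq).2 hz)
    rw [← h4]
    exact Nat.dvd_gcd (orderOf_dvd_of_pow_eq_one h1) (orderOf_dvd_of_pow_eq_one h2)
  have h4 : ((z : G) : G ⧸ L) = 1 := orderOf_eq_one_iff.1 (Nat.dvd_one.1 h3)
  exact (QuotientGroup.eq_one_iff z).1 h4

/-- both type I, `K` nonabelian -/
theorem caseA (h : Dat G n m) {p q : ℕ} {x y : G} (hp : p.Prime) (hq : q.Prime) (hpn : p ∣ n) (hqm : q ∣ m)
    (hx : SEl p x) (hy : SEl q y) (hxn : ci x = n) (hym : ci y = m) {K P L Q : Subgroup G}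
    (hK : TIdat p x m K P) (hL : TIdat q y n L Q) (hKc : ¬ ∀ a ∈ K, ∀ b ∈ K, a * b = b * a) :
    Group.IsNilpotent G ∧ IsPrimePow n ∧ IsPrimePow m := by
  have hpq : p ≠ q := by
    rintro rfl
    exact h.not_dvd_n hp hqm hpn
  obtain ⟨s, b, hs, hb, -⟩ := (ito_sub h.hm hK.sizes).resolve_left hKc
  have hqs : q = s := by
    rw [hb] at hqm
    exact (Nat.prime_dvd_prime_iff_eq hq hs).1 (hq.dvd_of_dvd_pow hqm)
  rw [← hqs] at hb
  obtain ⟨hLn, ⟨j, hj⟩, hLq, hLall⟩ := t1 hq hy (by rw [hym, hb]) hL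
  have hLc : ¬ ∀ a ∈ L, ∀ b ∈ L, a * b = b * a := by
    intro hcon
    have hxL : x ∈ L := hLall x (sel_not_dvd hq hp hpq hx)
    have h1 : L ≤ cz x := fun l hl => mem_cz.2 (hcon l hl x hxL)
    have h2 := index_dvd_of_le h1
    rw [hj, show (cz x).index = n from hxn] at h2
    exact h.hn.ne' (Nat.eq_one_of_dvd_coprimes (Nat.Coprime.pow_right j
      (((Nat.Prime.coprime_iff_not_dvd hq).2 (fun h3 => h.not_dvd_n hq hqm h3)).symm)) dvd_rfl h2)
  obtain ⟨s', a, hs', ha, -⟩ := (ito_sub h.hn hL.sizes).resolve_left hLc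
  have hps : p = s' := by
    rw [ha] at hpn
    exact (Nat.prime_dvd_prime_iff_eq hp hs').1 (hp.dvd_of_dvd_pow hpn)
  rw [← hps] at ha
  obtain ⟨hKn, ⟨i, hi⟩, hKp, -⟩ := t1 hp hx (by rw [hxn, ha]) hK
  refine ⟨?_, ?_, ?_⟩
  · apply MinNonNilp.isNilpotent_of_hasNormalPComplement
    intro r hr
    have := Fact.mk hr
    by_cases hrp : r = p
    · subst hrp
      rw [PNilp.hasNormalPComplement_iff]
      exact ⟨K, hKn, hKp, i, hi⟩
    by_cases hrq : r = q
    · subst hrq
      rw [PNilp.hasNormalPComplement_iff]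
      exact ⟨L, hLn, hLq, j, hj⟩
    obtain ⟨R⟩ : Nonempty (Sylow r G) := inferInstance
    rw [PNilp.hasNormalPComplement_iff_sylow R]
    obtain ⟨-, N, hN, hNR, -⟩ := DirectSylow.direct_factor (G := G) (p := r) (by
      intro z _ hd
      have h1 := hd.trans (h.dvd_nm z)
      rcases hr.dvd_mul.1 h1 with h2 | h2
      · rw [ha] at h2
        exact hrp ((Nat.prime_dvd_prime_iff_eq hr hp).1 (hr.dvd_of_dvd_pow h2))
      · rw [hb] at h2
        exact hrq ((Nat.prime_dvd_prime_iff_eq hr hq).1 (hr.dvd_of_dvd_pow h2))) R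
    exact ⟨N, hN, hNR⟩
  · rw [ha]
    refine (isPrimePow_pow_iff ?_).2 hp.isPrimePow
    rintro rfl
    rw [pow_zero] at ha
    exact h.hn.ne' ha
  · rw [hb]
    refine (isPrimePow_pow_iff ?_).2 hq.isPrimePow
    rintro rfl
    rw [pow_zero] at hb
    exact h.hm.ne' hb

/-- both type I, `K` and `L` abelian: impossible -/
theorem caseA3 (h : Dat G n m) {p q : ℕ} {x y : G} (hp : p.Prime) (hq : q.Prime) (hpn : p ∣ n) (hqm : q ∣ m)
    (hxn : ci x = n) (hym : ci y = m) {K P L Q : Subgroup G}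
    (hK : TIdat p x m K P) (hL : TIdat q y n L Q) (hKc : ∀ a ∈ K, ∀ b ∈ K, a * b = b * a)
    (hLc : ∀ a ∈ L, ∀ b ∈ L, a * b = b * a) : False := by
  have hpq : p ≠ q := by
    rintro rfl
    exact h.not_dvd_n hp hqm hpn
  -- the centralizers are abelian
  have key : ∀ {n m p q : ℕ} {x y : G} {K P L Q : Subgroup G}, p.Prime → q.Prime → p ≠ q → ¬ p ∣ m → ci y = m →
      TIdat p x m K P → TIdat q y n L Q → (∀ a ∈ K, ∀ b ∈ K, a * b = b * a) → (∀ a ∈ L, ∀ b ∈ L, a * b = b * a) →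
      ∀ a ∈ cz x, ∀ b ∈ cz x, a * b = b * a := by
    intro n m p q x y K P L Q hp hq hpq hpm hym hK hL hKc hLc
    have := Fact.mk hp
    have hPc : ∀ a ∈ P, ∀ b ∈ P, a * b = b * a := by
      obtain ⟨T, -, hTy, hT1, hT2⟩ := SylowTools.exists_sylow_of_subgroup (p := p) (K := cz y) (H := ⊥) bot_le
        (IsPGroup.of_bot)
      have hTi : ¬ p ∣ T.index := by
        rw [← Subgroup.relIndex_mul_index hTy]
        intro h1
        rcases hp.dvd_mul.1 h1 with h1 | h1
        · exact hT2 h1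
        · rw [show (cz y).index = m from hym] at h1
          exact hpm h1
      obtain ⟨t, -, ht⟩ := SylowTools.conj_into_of_sylow_of_subgroup (K := ⊤) (P := T) (H := P) le_top hT1
        (by rw [relIndex_top_right]; exact hTi) le_top hK.pP
      intro a ha b hb
      have h1 : t * a * t⁻¹ ∈ L := hL.memK _ (hTy (ht a ha))
        (by rw [SylowTools.orderOf_conj']; exact sel_not_dvd hq hp hpq (sel_of_mem hK.pP ha))
      have h2 : t * b * t⁻¹ ∈ L := hL.memK _ (hTy (ht b hb))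
        (by rw [SylowTools.orderOf_conj']; exact sel_not_dvd hq hp hpq (sel_of_mem hK.pP hb))
      have h3 := hLc _ h1 _ h2
      have h4 : t * (a * b) * t⁻¹ = t * (b * a) * t⁻¹ := by
        calc t * (a * b) * t⁻¹ = (t * a * t⁻¹) * (t * b * t⁻¹) := by group
          _ = (t * b * t⁻¹) * (t * a * t⁻¹) := h3
          _ = t * (b * a) * t⁻¹ := by group
      exact mul_left_cancel (mul_right_cancel h4)
    intro a ha b hb
    obtain ⟨a1, ha1, a2, ha2, rfl⟩ := hK.dec a ha
    obtain ⟨b1, hb1, b2, hb2, rfl⟩ := hK.dec b hb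
    have e1 : Commute a1 b1 := hPc _ ha1 _ hb1
    have e2 : Commute a1 b2 := hK.comm _ ha1 _ hb2
    have e3 : Commute a2 b1 := (hK.comm _ hb1 _ ha2).symm
    have e4 : Commute a2 b2 := hKc _ ha2 _ hb2
    exact ((e1.mul_right e2).mul_left (e3.mul_right e4)).eq
  have hAx := key hp hq hpq (h.symm.not_dvd_n hp hpn) hym hK hL hKc hLc
  have hAy := key hq hp hpq.symm (h.not_dvd_n hq hqm) hxn hL hK hLc hKc
  have hZ : cz x ⊓ cz y ≤ center G := by
    rintro z ⟨hz1, hz2⟩
    rw [← ci_eq_one]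
    have h1 : ci z ∣ n := by
      rw [← hxn]
      exact ci_dvd (fun g hg => mem_cz.2 (hAx g hg z hz1))
    have h2 : ci z ∣ m := by
      rw [← hym]
      exact ci_dvd (fun g hg => mem_cz.2 (hAy g hg z hz2))
    exact Nat.eq_one_of_dvd_coprimes h.cop h1 h2
  have h1 : (center G).index ≤ n * m := by
    calc (center G).index ≤ (cz x ⊓ cz y).index :=
          Nat.le_of_dvd (Nat.pos_of_ne_zero (cz x ⊓ cz y).index_ne_zero_of_finite) (index_dvd_of_le hZ)
      _ ≤ (cz x).index * (cz y).index := Subgroup.index_inf_le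
      _ = n * m := by rw [show (cz x).index = n from hxn, show (cz y).index = m from hym]
  obtain ⟨g, hg⟩ := h.exnm
  have h2 := relIndex_mul g
  have h3 : (center G).relIndex (cz g) ≠ 1 := by
    intro h3
    rw [Subgroup.relIndex_eq_one] at h3
    exact h.notc_nm hg (h3 (mem_cz.2 rfl))
  have h4 : (center G).relIndex (cz g) ≠ 0 := ((center G).subgroupOf (cz g)).index_ne_zero_of_finite
  rw [hg] at h2
  have h5 : 0 < n * m := Nat.mul_pos (by have := h.hn; omega) (by have := h.hm; omega)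
  have h6 : 2 ≤ (center G).relIndex (cz g) := by omega
  have h7 : 2 * (n * m) ≤ (center G).index := by
    rw [← h2]; exact Nat.mul_le_mul_right _ h6
  omega

/-- exactly one type I: impossible -/
theorem caseB1 (h : Dat G n m) {q : ℕ} {y : G} (hq : q.Prime) (hqm : q ∣ m) (hy : SEl q y) (hym : ci y = m)
    (hnt : ∀ (p : ℕ) (x : G), p.Prime → SEl p x → ci x = n → ¬ p ∣ n) : False := by
  obtain ⟨p, x, hp, hx, hxn⟩ := h.exists_primary
  have hpn : ¬ p ∣ n := hnt p x hp hx hxn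
  have hqn : ¬ q ∣ n := h.not_dvd_n hq hqm
  -- replace y by a conjugate commuting with x
  obtain ⟨t, ht⟩ := conj_top hq (H := cz x) (by rw [show (cz x).index = n from hxn]; exact hqn) hy
  set y' := t * y * t⁻¹ with hy'
  have hy's : SEl q y' := sel_conj hy t
  have hy'm : ci y' = m := by rw [hy', ci_conj, hym]
  have hxy : x ∈ cz y' := mem_cz_comm.1 ht
  obtain ⟨L, Q, hL⟩ := ti h.symm hq hqm hy's hy'm
  by_cases hpq : p = q
  · subst hpq
    have h1 : L ≤ cz x := fun l hl => mem_cz.2 (hL.comm x (hL.memP x hxy hx) l hl).symm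
    obtain ⟨j, hj⟩ := spow hq hL.Kle (fun z hz hz2 => hL.memK z hz hz2)
    have h2 := index_dvd_of_le h1
    rw [← Subgroup.relIndex_mul_index hL.Kle, hj, show (cz y').index = m from hy'm,
      show (cz x).index = n from hxn] at h2
    have h3 : n.Coprime (p ^ j * m) := Nat.Coprime.mul_right
      (Nat.Coprime.pow_right j ((Nat.Prime.coprime_iff_not_dvd hq).2 hqn).symm) h.cop
    exact h.hn.ne' (Nat.eq_one_of_dvd_coprimes h3 dvd_rfl h2)
  · have hxL : x ∈ L := hL.memK x hxy (sel_not_dvd hq hp hpq hx)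
    have hxc : ∀ l ∈ L, x * l = l * x := by
      rcases ito_sub h.hn hL.sizes with hc | ⟨s, a, hs, ha, hc⟩
      · exact fun l hl => hc x hxL l hl
      · refine fun l hl => hc x hxL p hp ?_ hx l hl
        rintro rfl
        apply hpn
        have ha0 : a ≠ 0 := by
          rintro rfl
          rw [pow_zero] at ha
          exact h.hn.ne' ha
        rw [ha]
        exact dvd_pow_self p ha0
    have h1 : cz y' ≤ cz x := by
      intro z hz
      obtain ⟨a, ha, l, hl, rfl⟩ := hL.dec z hz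
      exact mem_cz.2 (((show Commute a x from hL.comm a ha x hxL)).mul_left
        ((show Commute x l from hxc l hl).symm)).eq
    have h2 := ci_dvd h1
    rw [hxn, hy'm] at h2
    exact h.not_n_dvd_m h2

end

theorem main {G : Type u} [Group G] [Finite G] {n m : ℕ} (h : Dat G n m) :
    Group.IsNilpotent G ∧ IsPrimePow n ∧ IsPrimePow m := by
  by_cases h1 : ∀ (p : ℕ) (x : G), p.Prime → SEl p x → ci x = n → ¬ p ∣ n
  · by_cases h2 : ∀ (p : ℕ) (x : G), p.Prime → SEl p x → ci x = m → ¬ p ∣ m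
    · exact ((⟨h, h1, h2⟩ : Dat2 G n m).false).elim
    · push Not at h2
      obtain ⟨q, y, hq, hy, hym, hqm⟩ := h2
      exact (caseB1 h hq hqm hy hym h1).elim
  · push Not at h1
    obtain ⟨p, x, hp, hx, hxn, hpn⟩ := h1
    by_cases h2 : ∀ (p : ℕ) (x : G), p.Prime → SEl p x → ci x = m → ¬ p ∣ m
    · exact (caseB1 h.symm hp hpn hx hxn h2).elim
    · push Not at h2
      obtain ⟨q, y, hq, hy, hym, hqm⟩ := h2
      obtain ⟨K, P, hK⟩ := ti h hp hpn hx hxn
      obtain ⟨L, Q, hL⟩ := ti h.symm hq hqm hy hym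
      by_cases hKc : ∀ a ∈ K, ∀ b ∈ K, a * b = b * a
      · by_cases hLc : ∀ a ∈ L, ∀ b ∈ L, a * b = b * a
        · exact (caseA3 h hp hq hpn hqm hxn hym hK hL hKc hLc).elim
        · obtain ⟨h3, h4, h5⟩ := caseA h.symm hq hp hqm hpn hy hx hym hxn hL hK hLc
          exact ⟨h3, h5, h4⟩
      · exact caseA h hp hq hpn hqm hx hy hxn hym hK hL hKc

end Cfsg.Agent.Lib.FourSizes
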