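import Cfsg.Agent.Lib.FpfPQ1

/-!
The combinatorial part of the theorem on fixed-point-free action of nonabelian groups of order
`pq` (helper59).
-/

set_option autoImplicit false

namespace Cfsg.Agent.Lib.FpfPQ2

open Module Subgroup Cfsg.Agent.Lib.WtGroup
  Cfsg.Agent.Lib.Weights Cfsg.Agent.Lib.CoprimeAction Cfsg.Agent.Lib.CoprimeAction2
  Cfsg.Agent.Lib.SubgroupTools Cfsg.Agent.Lib.Ward
open scoped commutatorElement Pointwise

universe u v w

section Comb

variable {Γ : Type u} [Group Γ] [Finite Γ]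

theorem sup_eq_of_generate {A T : Subgroup Γ} {a b : Γ} (hAT : A ≤ normalizer (T : Set Γ))
    (ha : a ∈ A) (hb : b ∈ A) (hgen : ∀ S : Subgroup Γ, a ∈ S → b ∈ S → A ≤ S)
    (hcop : (Nat.card A).Coprime (Nat.card T)) (hT : Group.IsSolvable T)
    (hfix : T ⊓ centralizer (A : Set Γ) = ⊥) : ⁅T, zpowers a⁆ ⊔ ⁅T, zpowers b⁆ = T := by
  have haT : zpowers a ≤ normalizer (T : Set Γ) := zpowers_le.2 (hAT ha)
  have hbT : zpowers b ≤ normalizer (T : Set Γ) := zpowers_le.2 (hAT hb)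
  set L := ⁅T, zpowers a⁆ ⊔ ⁅T, zpowers b⁆ with hL
  have hLT : L ≤ T := sup_le (le_normalizer_iff_commutator_le_left.mp haT)
    (le_normalizer_iff_commutator_le_left.mp hbT)
  have haL : zpowers a ≤ normalizer (L : Set Γ) := by
    rw [le_normalizer_iff]
    intro g hg l hl
    have h1 : g * l * g⁻¹ = ⁅g, l⁆ * l := by rw [commutatorElement_def]; group
    have h2 : ⁅g, l⁆ ∈ ⁅T, zpowers a⁆ := by
      rw [commutator_comm]
      exact commutator_mem_commutator hg (hLT hl)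
    rw [h1]
    exact mul_mem (mem_sup_left h2) hl
  have hbL : zpowers b ≤ normalizer (L : Set Γ) := by
    rw [le_normalizer_iff]
    intro g hg l hl
    have h1 : g * l * g⁻¹ = ⁅g, l⁆ * l := by rw [commutatorElement_def]; group
    have h2 : ⁅g, l⁆ ∈ ⁅T, zpowers b⁆ := by
      rw [commutator_comm]
      exact commutator_mem_commutator hg (hLT hl)
    rw [h1]
    exact mul_mem (mem_sup_right h2) hl
  let G₁ : Subgroup Γ :=
    { carrier := {g | g ∈ normalizer (L : Set Γ) ∧ g ∈ normalizer (T : Set Γ) ∧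
        ∀ t ∈ T, ⁅g, t⁆ ∈ L}
      one_mem' := ⟨one_mem _, one_mem _, fun t _ => by rw [commutatorElement_one_left]; exact one_mem _⟩
      mul_mem' := by
        rintro g h ⟨hg, hg', hg''⟩ ⟨hh, hh', hh''⟩
        refine ⟨mul_mem hg hh, mul_mem hg' hh', fun t ht => ?_⟩
        have h1 : ⁅g * h, t⁆ = g * ⁅h, t⁆ * g⁻¹ * ⁅g, t⁆ := by
          simp only [commutatorElement_def]; group
        rw [h1]
        exact mul_mem ((mem_normalizer_iff.1 hg _).1 (hh'' t ht)) (hg'' t ht)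
      inv_mem' := by
        rintro g ⟨hg, hg', hg''⟩
        refine ⟨inv_mem hg, inv_mem hg', fun t ht => ?_⟩
        have h1 : ⁅g⁻¹, t⁆ = g⁻¹ * ⁅g, t⁆⁻¹ * g⁻¹⁻¹ := by
          simp only [commutatorElement_def]; group
        rw [h1]
        exact (mem_normalizer_iff.1 (inv_mem hg) _).1 (inv_mem (hg'' t ht)) }
  have hAG : A ≤ G₁ := by
    apply hgen
    · refine ⟨haL (mem_zpowers a), hAT ha, fun t ht => ?_⟩
      apply mem_sup_left
      rw [commutator_comm]
      exact commutator_mem_commutator (mem_zpowers a) ht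
    · refine ⟨hbL (mem_zpowers b), hAT hb, fun t ht => ?_⟩
      apply mem_sup_right
      rw [commutator_comm]
      exact commutator_mem_commutator (mem_zpowers b) ht
  have h1 := commutator_sup_centralizer hAT hcop (Or.inr hT)
  rw [hfix, sup_bot_eq] at h1
  apply le_antisymm hLT
  rw [← h1, commutator_comm, commutator_le]
  intro g hg t ht
  exact (hAG hg).2.2 t ht

theorem le_of_family {A T Q Q₀ : Subgroup Γ} {a v : Γ} (haA : a ∈ A) (hvA : v ∈ A)
    (hAgen : ∀ S : Subgroup Γ, a ∈ S → v ∈ S → A ≤ S)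
    (hva : ∀ x ∈ zpowers a, v * x * v⁻¹ ∈ zpowers a)
    (hgen : ∀ x ∈ zpowers a, x ≠ 1 → ∀ S : Subgroup Γ, v ∈ S → x * v * x⁻¹ ∈ S → A ≤ S)
    (hAQ : A ≤ normalizer (Q : Set Γ)) (hAT : A ≤ normalizer (T : Set Γ))
    (hTQ : T ≤ normalizer (Q : Set Γ))
    (hcAQ : (Nat.card A).Coprime (Nat.card Q)) (hcAT : (Nat.card A).Coprime (Nat.card T))
    (hcTQ : (Nat.card T).Coprime (Nat.card Q)) (hQs : Group.IsSolvable Q)
    (hTs : Group.IsSolvable T) (hfixT : T ⊓ centralizer (A : Set Γ) = ⊥)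
    (hfixQ : Q ⊓ centralizer (A : Set Γ) = ⊥) (hCT : Q ⊓ centralizer (T : Set Γ) ≤ ⁅Q, Q⁆)
    (hDQ₀ : ⁅Q, Q⁆ ≤ Q₀) (hQ₀Q : Q₀ ≤ Q) (hTQ₀ : T ≤ normalizer (Q₀ : Set Γ))
    (hvQ₀ : v ∈ normalizer (Q₀ : Set Γ)) (hv : ∀ x ∈ Q, v * x * v⁻¹ * x⁻¹ ∈ Q₀)
    (hS : ∀ s ∈ ⁅T, zpowers v⁆, ∀ x ∈ Q, x⁻¹ * (s * x * s⁻¹) ∈ Q₀)
    (hinter : ∀ y ∈ Q, (∀ x ∈ zpowers a, x⁻¹ * y * x ∈ Q₀) → y ∈ ⁅Q, Q⁆) : Q ≤ ⁅Q, Q⁆ := by
  classical
  set D : Subgroup Γ := ⁅Q, Q⁆ with hD
  have hDQ : D ≤ Q := hDQ₀.trans hQ₀Q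
  have hAD : A ≤ normalizer (D : Set Γ) := Lib.H32PSolv.le_normalizer_commutator hAQ hAQ
  have hzA : zpowers a ≤ A := zpowers_le.2 haA
  have hvai : ∀ x ∈ zpowers a, v⁻¹ * x * v ∈ zpowers a := by
    intro x hx
    have h1 : (zpowers a).map (MulAut.conj v).toMonoidHom ≤ zpowers a := by
      rintro _ ⟨y, hy, rfl⟩
      exact hva y hy
    have h2 : (zpowers a).map (MulAut.conj v).toMonoidHom = zpowers a :=
      eq_of_le_of_card_ge h1 (by rw [card_map_of_injective (MulAut.conj v).injective])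
    rw [← h2] at hx
    obtain ⟨y, hy, rfl⟩ := hx
    have h3 : v⁻¹ * (v * y * v⁻¹) * v = y := by group
    change v⁻¹ * (v * y * v⁻¹) * v ∈ zpowers a
    rw [h3]
    exact hy
  -- step 1
  have hY : ∀ y ∈ Q, (∀ x ∈ zpowers a, x ≠ 1 → x⁻¹ * y * x ∈ Q₀) → y ∈ D := by
    intro y hy hyx
    apply hinter y hy
    have hvy : v * y * v⁻¹ * y⁻¹ ∈ D := by
      have hvyQ : v * y * v⁻¹ ∈ Q := (le_normalizer_iff.1 hAQ) v hvA y hy
      apply hinter _ (mul_mem hvyQ (inv_mem hy))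
      intro x hx
      by_cases hx1 : x = 1
      · rw [hx1, inv_one, one_mul, mul_one]
        exact hv y hy
      have h1 : x⁻¹ * (v * y * v⁻¹ * y⁻¹) * x =
          (v * ((v⁻¹ * x * v)⁻¹ * y * (v⁻¹ * x * v)) * v⁻¹) * (x⁻¹ * y * x)⁻¹ := by group
      rw [h1]
      refine mul_mem ?_ (inv_mem (hyx x hx hx1))
      refine (mem_normalizer_iff.1 hvQ₀ _).1 (hyx _ (hvai x hx) ?_)
      intro h2
      apply hx1
      have h3 : x = v * (v⁻¹ * x * v) * v⁻¹ := by group
      rw [h3, h2]; group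
    -- the norm
    let _ : Fintype (zpowers a) := Fintype.ofFinite _
    let c : A → Q →* Q := fun g => (PCoreTools.conjAut (g : Γ) (hAQ g.2)).toMonoidHom
    have hc : ∀ g x, ((c g x : Q) : Γ) = g * x * (g : Γ)⁻¹ := fun g x => rfl
    let F : zpowers a → A := fun x => ⟨x, hzA x.2⟩
    let y' : Q := ⟨y, hy⟩
    have hof : ∀ z z' : Q, (z : Γ) * (z' : Γ)⁻¹ ∈ D → Abelianization.of z = Abelianization.of z' := by
      intro z z' h
      rw [← mul_inv_eq_one, ← map_inv, ← map_mul, ← MonoidHom.mem_ker, Abelianization.ker_of]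
      rw [hD, ← Q.map_subtype_commutator] at h
      obtain ⟨t, ht, ht'⟩ := h
      have h2 : t = z * z'⁻¹ := Subtype.ext ht'
      rw [← h2]
      exact ht
    have hof' : ∀ z : Q, Abelianization.of z = 1 → (z : Γ) ∈ D := by
      intro z h
      rw [← MonoidHom.mem_ker, Abelianization.ker_of] at h
      rw [hD, ← Q.map_subtype_commutator]
      exact ⟨z, h, rfl⟩
    have hofs : ∀ P : Abelianization Q, ∃ w : Q, Abelianization.of w = P := fun P =>
      Quotient.exists_rep P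
    obtain ⟨w, hw⟩ := hofs (∏ x : zpowers a, Abelianization.of (c (F x) y'))
    have hmap : ∀ g : A, Abelianization.of (c g w) =
        ∏ x : zpowers a, Abelianization.of (c g (c (F x) y')) := by
      intro g
      have h1 : Abelianization.of (c g w) = Abelianization.map (c g) (Abelianization.of w) := rfl
      rw [h1, hw, map_prod]
      rfl
    have hwa : Abelianization.of (c ⟨a, haA⟩ w) = Abelianization.of w := by
      rw [hmap, hw]
      refine Fintype.prod_equiv (Equiv.mulLeft (⟨a, mem_zpowers a⟩ : zpowers a)) _ _ fun x => ?_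
      congr 1
      apply Subtype.ext
      rw [hc, hc, hc]
      change a * ((x : Γ) * y * (x : Γ)⁻¹) * a⁻¹ = (a * x) * y * (a * x)⁻¹
      group
    have hwv : Abelianization.of (c ⟨v, hvA⟩ w) = Abelianization.of w := by
      rw [hmap, hw]
      let E : zpowers a ≃ zpowers a :=
        { toFun := fun x => ⟨v * x * v⁻¹, hva x x.2⟩
          invFun := fun x => ⟨v⁻¹ * x * v, hvai x x.2⟩
          left_inv := fun x => Subtype.ext (by simp [mul_assoc])
          right_inv := fun x => Subtype.ext (by simp [mul_assoc]) }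
      refine Fintype.prod_equiv E _ _ fun x => ?_
      apply hof
      rw [hc, hc, hc]
      change v * ((x : Γ) * y * (x : Γ)⁻¹) * v⁻¹ *
        ((v * (x : Γ) * v⁻¹) * y * (v * (x : Γ) * v⁻¹)⁻¹)⁻¹ ∈ D
      have h1 : v * ((x : Γ) * y * (x : Γ)⁻¹) * v⁻¹ *
          ((v * (x : Γ) * v⁻¹) * y * (v * (x : Γ) * v⁻¹)⁻¹)⁻¹ =
          (v * (x : Γ) * v⁻¹) * (v * y * v⁻¹ * y⁻¹) * (v * (x : Γ) * v⁻¹)⁻¹ := by group
      rw [h1]
      exact (le_normalizer_iff.1 hAD) _ (hzA (hva x x.2)) _ hvy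
    let E₁ : Subgroup Γ :=
      { carrier := {g | g ∈ normalizer (Q : Set Γ) ∧ g ∈ normalizer (D : Set Γ) ∧
          g * w * g⁻¹ * (w : Γ)⁻¹ ∈ D}
        one_mem' := ⟨one_mem _, one_mem _, by simp⟩
        mul_mem' := by
          rintro g h ⟨hg, hg', hg''⟩ ⟨hh, hh', hh''⟩
          refine ⟨mul_mem hg hh, mul_mem hg' hh', ?_⟩
          have h1 : g * h * (w : Γ) * (g * h)⁻¹ * (w : Γ)⁻¹ =
              g * (h * w * h⁻¹ * (w : Γ)⁻¹) * g⁻¹ * (g * w * g⁻¹ * (w : Γ)⁻¹) := by group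
          rw [h1]
          exact mul_mem ((mem_normalizer_iff.1 hg' _).1 hh'') hg''
        inv_mem' := by
          rintro g ⟨hg, hg', hg''⟩
          refine ⟨inv_mem hg, inv_mem hg', ?_⟩
          have h1 : g⁻¹ * (w : Γ) * g⁻¹⁻¹ * (w : Γ)⁻¹ =
              g⁻¹ * (g * w * g⁻¹ * (w : Γ)⁻¹)⁻¹ * g⁻¹⁻¹ := by group
          rw [h1]
          exact (mem_normalizer_iff.1 (inv_mem hg') _).1 (inv_mem hg'') }
    have hE : ∀ g : A, Abelianization.of (c g w) = Abelianization.of w → (g : Γ) ∈ E₁ := by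
      intro g hg
      refine ⟨hAQ g.2, hAD g.2, ?_⟩
      have h1 : Abelianization.of (c g w * w⁻¹) = 1 := by
        rw [map_mul, map_inv, hg, mul_inv_cancel]
      exact hof' _ h1
    have hAE : A ≤ E₁ := hAgen E₁ (hE ⟨a, haA⟩ hwa) (hE ⟨v, hvA⟩ hwv)
    have hDs : Group.IsSolvable D := isSolvable_of_le hDQ hQs
    obtain ⟨d, hd, hwd⟩ := exists_mul_mem_centralizer (A := A) (D := D) hAD
      (hcAQ.coprime_dvd_right (card_dvd_of_le hDQ)) (Or.inr hDs) (w : Γ) (by
        intro g hg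
        have h1 := (hAE hg).2.2
        have h2 : (w : Γ)⁻¹ * (g * w * g⁻¹) =
          (w : Γ)⁻¹ * (g * w * g⁻¹ * (w : Γ)⁻¹) * (w : Γ)⁻¹⁻¹ := by group
        rw [h2]
        have h3 : (w : Γ)⁻¹ ∈ normalizer (D : Set Γ) :=
          (Lib.H32PSolv.le_normalizer_commutator (K := Q) le_normalizer le_normalizer)
            (inv_mem w.2)
        exact (mem_normalizer_iff.1 h3 _).1 h1)
    have hwD : (w : Γ) ∈ D := by
      have h1 : (w : Γ) * d ∈ Q ⊓ centralizer (A : Set Γ) :=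
        mem_inf.2 ⟨mul_mem w.2 (hDQ hd), hwd⟩
      rw [hfixQ, mem_bot] at h1
      rw [eq_inv_of_mul_eq_one_left h1]
      exact inv_mem hd
    have hprod : ∏ x : zpowers a, Abelianization.of (c (F x) y') = 1 := by
      rw [← hw]
      have h1 := hof w 1 (by rw [Subgroup.coe_one, inv_one, mul_one]; exact hwD)
      rw [h1, map_one]
    have hyQ₀ : y ∈ Q₀ := by
      rw [← Finset.mul_prod_erase Finset.univ _ (Finset.mem_univ (1 : zpowers a))] at hprod
      have h1 : c (F 1) y' = y' := by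
        apply Subtype.ext
        rw [hc]
        change (1 : Γ) * y * (1 : Γ)⁻¹ = y
        simp
      rw [h1] at hprod
      have h2 : ∏ x ∈ Finset.univ.erase (1 : zpowers a), Abelianization.of (c (F x) y') ∈
          (Q₀.subgroupOf Q).map Abelianization.of := by
        refine Subgroup.prod_mem _ fun x hx => ⟨c (F x) y', ?_, rfl⟩
        have hx1 : x ≠ 1 := (Finset.mem_erase.1 hx).1
        have h3 := hyx (x : Γ)⁻¹ (inv_mem x.2) (fun h => hx1 (Subtype.ext (inv_eq_one.1 h)))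
        rw [inv_inv] at h3
        exact h3
      have h3 : Abelianization.of y' ∈ (Q₀.subgroupOf Q).map Abelianization.of := by
        rw [eq_inv_of_mul_eq_one_left hprod]
        exact inv_mem h2
      obtain ⟨z, hz, hzy⟩ := h3
      have h4 : Abelianization.of (y' * z⁻¹) = 1 := by
        rw [map_mul, map_inv, hzy, mul_inv_cancel]
      have h5 : y * (z : Γ)⁻¹ ∈ D := hof' _ h4
      have h6 := mul_mem (hDQ₀ h5) (show (z : Γ) ∈ Q₀ from hz)
      rwa [inv_mul_cancel_right] at h6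
    intro x hx
    by_cases hx1 : x = 1
    · rw [hx1, inv_one, one_mul, mul_one]
      exact hyQ₀
    · exact hyx x hx hx1
  -- step 2
  set S₀ : Subgroup Γ := ⁅T, zpowers v⁆ with hS₀
  have hvT : zpowers v ≤ normalizer (T : Set Γ) := zpowers_le.2 (hAT hvA)
  have hS₀T : S₀ ≤ T := le_normalizer_iff_commutator_le_left.mp hvT
  have hCS : ∀ y ∈ Q, (∀ s ∈ S₀, s * y = y * s) → y ∈ D := by
    intro y hy hys
    apply hY y hy
    intro x hx hx1
    have hxA : x ∈ A := hzA hx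
    have hsup := sup_eq_of_generate (a := v) (b := x * v * x⁻¹) hAT hvA
      (mul_mem (mul_mem hxA hvA) (inv_mem hxA)) (hgen x hx hx1) hcAT hTs hfixT
    set Qx : Subgroup Γ := MulAut.conj x • Q₀ with hQx
    have hxQ : MulAut.conj x • Q = Q := conj_smul_of_mem_normalizer (hAQ hxA)
    have hxT : MulAut.conj x • T = T := conj_smul_of_mem_normalizer (hAT hxA)
    have hQxQ : Qx ≤ Q := by
      rw [← hxQ]
      exact conj_smul_mono x hQ₀Q
    have hDQx : D ≤ Qx := by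
      have h1 : MulAut.conj x • D = D := conj_smul_of_mem_normalizer (hAD hxA)
      rw [← h1]
      exact conj_smul_mono x hDQ₀
    have hTQx : T ≤ normalizer (Qx : Set Γ) := by
      rw [le_normalizer_iff]
      intro t ht z hz
      rw [hQx, mem_conj_smul] at hz ⊢
      have ht' : x⁻¹ * t * x ∈ T := by
        have h1 := ht
        rw [← hxT, mem_conj_smul] at h1
        exact h1
      have h1 := (le_normalizer_iff.1 hTQ₀) _ ht' _ hz
      have h2 : x⁻¹ * (t * z * t⁻¹) * x =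
        (x⁻¹ * t * x) * (x⁻¹ * z * x) * (x⁻¹ * t * x)⁻¹ := by group
      rw [h2]
      exact h1
    have hSx : ∀ s ∈ ⁅T, zpowers (x * v * x⁻¹)⁆, y⁻¹ * (s * y * s⁻¹) ∈ Qx := by
      intro s hs
      have h1 : ⁅T, zpowers (x * v * x⁻¹)⁆ = MulAut.conj x • S₀ := by
        have h2 : zpowers (x * v * x⁻¹) = MulAut.conj x • zpowers v := by
          rw [conj_smul_eq_map, MonoidHom.map_zpowers]
          rfl
        rw [hS₀, conj_smul_eq_map, map_commutator, ← conj_smul_eq_map, ← conj_smul_eq_map, hxT, ← h2]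
      rw [h1, mem_conj_smul] at hs
      rw [hQx, mem_conj_smul]
      have hy' : x⁻¹ * y * x ∈ Q := by
        have h3 := hy
        rw [← hxQ, mem_conj_smul] at h3
        exact h3
      have h4 := hS _ hs _ hy'
      have h5 : x⁻¹ * (y⁻¹ * (s * y * s⁻¹)) * x = (x⁻¹ * y * x)⁻¹ *
        ((x⁻¹ * s * x) * (x⁻¹ * y * x) * (x⁻¹ * s * x)⁻¹) := by group
      rw [h5]
      exact h4
    have hS₀n : ⁅T, zpowers (x * v * x⁻¹)⁆ ≤ normalizer (S₀ : Set Γ) :=
      (le_normalizer_iff_commutator_le_left.mp (zpowers_le.2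
        (hAT (mul_mem (mul_mem hxA hvA) (inv_mem hxA))))).trans
        (normalizer_commutator_ge_left T (zpowers v))
    have hQxs : Group.IsSolvable Qx := isSolvable_of_le hQxQ hQs
    obtain ⟨d, hd, hyd⟩ := exists_mul_mem_centralizer (A := T) (D := Qx) hTQx
      (hcTQ.coprime_dvd_right (card_dvd_of_le hQxQ)) (Or.inr hQxs) y (by
        intro t ht
        rw [← hsup] at ht
        obtain ⟨s, hs, s', hs', rfl⟩ := (mem_sup_of_le_normalizer hS₀n).1 ht
        have h1 := hSx s' hs'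
        have h2 := (le_normalizer_iff.1 hTQx) s (hS₀T hs) _ h1
        have h3 : y⁻¹ * (s * s' * y * (s * s')⁻¹) =
            y⁻¹ * (s * y) * (y⁻¹ * (s' * y * s'⁻¹)) * s⁻¹ := by group
        rw [h3, hys s hs]
        have h4 : y⁻¹ * (y * s) * (y⁻¹ * (s' * y * s'⁻¹)) * s⁻¹ =
          s * (y⁻¹ * (s' * y * s'⁻¹)) * s⁻¹ := by group
        rw [h4]
        exact h2)
    have h1 : y * d ∈ D := hCT ⟨mul_mem hy (hQxQ hd), hyd⟩
    have h2 := mul_mem (hDQx h1) (inv_mem hd)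
    rw [mul_inv_cancel_right, hQx, mem_conj_smul] at h2
    exact h2
  -- step 3
  have hQQ₀ : Q ≤ Q₀ := by
    intro y hy
    have hQ₀s : Group.IsSolvable Q₀ := isSolvable_of_le hQ₀Q hQs
    obtain ⟨d, hd, hyd⟩ := exists_mul_mem_centralizer (A := S₀) (D := Q₀) (hS₀T.trans hTQ₀)
      ((hcTQ.coprime_dvd_right (card_dvd_of_le hQ₀Q)).coprime_dvd_left (card_dvd_of_le hS₀T))
      (Or.inr hQ₀s) y (fun s hs => hS s hs y hy)
    have h1 : y * d ∈ D := hCS _ (mul_mem hy (hQ₀Q hd)) fun s hs => mem_centralizer_iff.1 hyd s hs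
    have h2 := mul_mem (hDQ₀ h1) (inv_mem hd)
    rwa [mul_inv_cancel_right] at h2
  intro y hy
  apply hinter y hy
  intro x hx
  apply hQQ₀
  exact conj_mem_of_normalizer (hAQ (hzA hx)) hy

end Comb

end Cfsg.Agent.Lib.FpfPQ2
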