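import Cfsg.Agent.Lib.FpfPQ2
import Cfsg.Agent.Lib.ShultGross

/-!
Fixed-point-free action of nonabelian groups of order `pq`: the configuration (helper59).
-/

set_option autoImplicit false

namespace Cfsg.Agent.Lib.FpfPQ3

open Module Subgroup Cfsg.Agent.Lib.WtGroup
  Cfsg.Agent.Lib.Weights Cfsg.Agent.Lib.CoprimeAction Cfsg.Agent.Lib.CoprimeAction2
  Cfsg.Agent.Lib.SubgroupTools Cfsg.Agent.Lib.Ward
open scoped commutatorElement Pointwise

universe u v w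

section Basic

variable {Γ : Type u} [Group Γ] {k : Type v} {W : Type w} [Field k] [AddCommGroup W]
  [Module k W]

/-- Glauberman's lemma for weights, version without normality -/
theorem exists_fixed_weight' [Finite Γ] {D K A : Subgroup Γ} (hKD : K ≤ normalizer (D : Set Γ))
    (hAD : A ≤ normalizer (D : Set Γ))
    (hAK : A ≤ normalizer (K : Set Γ)) (hcop : (Nat.card A).Coprime (Nat.card K))
    (hsolv : Group.IsSolvable A ∨ Group.IsSolvable K) (χ : Γ → k)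
    (hx : ∀ a ∈ A, ∃ y ∈ K, y⁻¹ * a ∈ stab D χ) : ∃ y ∈ K, A ≤ stab D (tw y χ) := by
  classical
  let _ : MulAction Γ (Γ → k) :=
    { smul := fun g f => tw g f
      one_smul := by
        intro f
        funext x
        change f ((1 : Γ)⁻¹ * x * 1) = f x
        congr 1
        group
      mul_smul := by
        intro g h f
        funext x
        change f ((g * h)⁻¹ * x * (g * h)) = f (h⁻¹ * (g⁻¹ * x * g) * h)
        congr 1
        group }
  have hsm : ∀ (g : Γ) (f : Γ → k) (x : Γ), (g • f) x = f (g⁻¹ * x * g) := fun g f x => rfl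
  let χ' : Γ → k := fun x => if x ∈ D then χ x else 0
  have hcD : ∀ g ∈ normalizer (D : Set Γ), ∀ x : Γ, g⁻¹ * x * g ∈ D ↔ x ∈ D := by
    intro g hg x
    have h1 := mem_normalizer_iff.1 (inv_mem hg) x
    rw [inv_inv] at h1
    exact h1.symm
  obtain ⟨y, hy, h⟩ := exists_fixed_point hAK hcop hsolv χ' (by
    intro a ha
    obtain ⟨y, hy, hya⟩ := hx a ha
    refine ⟨y, hy, ?_⟩
    funext x
    rw [hsm, hsm]
    by_cases hxD : x ∈ D
    · have h1 := hya.2 (y⁻¹ * x * y) ((hcD y (hKD hy) x).2 hxD)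
      have h2 : (y⁻¹ * a)⁻¹ * (y⁻¹ * x * y) * (y⁻¹ * a) = a⁻¹ * x * a := by group
      rw [h2] at h1
      simp only [χ', if_pos ((hcD a (hAD ha) x).2 hxD), if_pos ((hcD y (hKD hy) x).2 hxD), h1]
    · have h1 : a⁻¹ * x * a ∉ D := fun h => hxD ((hcD a (hAD ha) x).1 h)
      have h2 : y⁻¹ * x * y ∉ D := fun h => hxD ((hcD y (hKD hy) x).1 h)
      simp only [χ', if_neg h1, if_neg h2])
  refine ⟨y, hy, fun a ha => ⟨hAD ha, fun x hxD => ?_⟩⟩
  have h1 := congrFun (h a ha) x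
  rw [hsm, hsm, hsm] at h1
  have h2 : y⁻¹ * (a⁻¹ * x * a) * y ∈ D := (hcD y (hKD hy) _).2 ((hcD a (hAD ha) x).2 hxD)
  have h3 : y⁻¹ * x * y ∈ D := (hcD y (hKD hy) x).2 hxD
  simp only [χ', if_pos h2, if_pos h3] at h1
  rw [tw_apply, tw_apply]
  exact h1

/-- a coprime group `T` with `[Q,T] = Q` has its fixed points in `[Q,Q]` -/
theorem mem_commutator_of_centralizer {Q T : Subgroup Γ} [Finite Q] [Finite T]
    (hTQ : T ≤ normalizer (Q : Set Γ)) (hQT : ⁅Q, T⁆ = Q)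
    (hcop : (Nat.card T).Coprime (Nat.card Q)) : Q ⊓ centralizer (T : Set Γ) ≤ ⁅Q, Q⁆ := by
  classical
  intro z hz
  have hzc : ∀ t ∈ T, t * z = z * t := fun t ht => mem_centralizer_iff.1 hz.2 t ht
  let _ : Fintype T := Fintype.ofFinite T
  let c : T → Q →* Q := fun g => (PCoreTools.conjAut (g : Γ) (hTQ g.2)).toMonoidHom
  have hcoe : ∀ g x, ((c g x : Q) : Γ) = g * x * (g : Γ)⁻¹ := fun g x => rfl
  let N : Q →* Abelianization Q := ∏ i : T, Abelianization.of.comp (c i)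
  have hN : ∀ x, N x = ∏ i : T, Abelianization.of (c i x) := by
    intro x
    simp only [N, MonoidHom.finsetProd_apply, MonoidHom.comp_apply]
  have hshift : ∀ (t : T) (x : Q), N (c t x) = N x := by
    intro t x
    rw [hN, hN]
    refine Fintype.prod_equiv (Equiv.mulRight t) _ _ fun i => ?_
    congr 1
    apply Subtype.ext
    rw [hcoe, hcoe, hcoe, Equiv.coe_mulRight, Subgroup.coe_mul]
    group
  have hker : ⁅Q, T⁆ ≤ N.ker.map Q.subtype := by
    rw [commutator_le]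
    intro x hx t ht
    refine ⟨⟨x, hx⟩ * (c ⟨t, ht⟩ ⟨x, hx⟩)⁻¹, ?_, ?_⟩
    · change N _ = 1
      rw [map_mul, map_inv, hshift, mul_inv_cancel]
    · change x * (t * x * t⁻¹)⁻¹ = ⁅x, t⁆
      rw [commutatorElement_def]; group
  rw [hQT] at hker
  obtain ⟨z', hz', hz''⟩ := hker hz.1
  have hz3 : (z' : Γ) = z := hz''
  have h5 : N z' = Abelianization.of (z' ^ Nat.card T) := by
    have h6 : ∀ i ∈ (Finset.univ : Finset T),
        Abelianization.of (c i z') = Abelianization.of z' := by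
      intro i _
      congr 1
      apply Subtype.ext
      rw [hcoe, hz3, hzc i i.2, mul_inv_cancel_right]
    rw [hN, Finset.prod_congr rfl h6, Finset.prod_const, Finset.card_univ, map_pow,
      Nat.card_eq_fintype_card]
  have h6 : z' ^ Nat.card T ∈ _root_.commutator Q := by
    rw [← Abelianization.ker_of, MonoidHom.mem_ker, ← h5]
    exact hz'
  have h7 : z' ∈ _root_.commutator Q := S3Fpf.mem_of_pow_mem' hcop.symm pow_card_eq_one' h6
  rw [← Q.map_subtype_commutator, ← hz3]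
  exact mem_map_of_mem Q.subtype h7

/-- the elements acting trivially on `Q/R` -/
def triv (Q R : Subgroup Γ) : Subgroup Γ where
  carrier := {g | g ∈ normalizer (Q : Set Γ) ∧ g ∈ normalizer (R : Set Γ) ∧
    ∀ x ∈ Q, g * x * g⁻¹ * x⁻¹ ∈ R}
  one_mem' := ⟨one_mem _, one_mem _, fun x _ => by simp⟩
  mul_mem' := by
    rintro g h ⟨hg, hg', hg''⟩ ⟨hh, hh', hh''⟩
    refine ⟨mul_mem hg hh, mul_mem hg' hh', fun x hx => ?_⟩
    have h1 : g * h * x * (g * h)⁻¹ * x⁻¹ =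
        g * (h * x * h⁻¹ * x⁻¹) * g⁻¹ * (g * x * g⁻¹ * x⁻¹) := by group
    rw [h1]
    exact mul_mem ((mem_normalizer_iff.1 hg' _).1 (hh'' x hx)) (hg'' x hx)
  inv_mem' := by
    rintro g ⟨hg, hg', hg''⟩
    refine ⟨inv_mem hg, inv_mem hg', fun x hx => ?_⟩
    have h1 : g⁻¹ * x * g⁻¹⁻¹ * x⁻¹ = g⁻¹ * (g * x * g⁻¹ * x⁻¹)⁻¹ * g⁻¹⁻¹ := by group
    rw [h1]
    exact (mem_normalizer_iff.1 (inv_mem hg') _).1 (inv_mem (hg'' x hx))

theorem commutator_le_triv {Q R T : Subgroup Γ} {b : Γ} (hTQ : T ≤ normalizer (Q : Set Γ))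
    (hTR : T ≤ normalizer (R : Set Γ)) (hb : b ∈ triv Q R) : ⁅T, zpowers b⁆ ≤ triv Q R := by
  rw [commutator_le]
  intro t ht g hg
  have hg' : g ∈ triv Q R := (zpowers_le.2 hb) hg
  have h1 : t * g * t⁻¹ ∈ triv Q R := by
    refine ⟨mul_mem (mul_mem (hTQ ht) hg'.1) (inv_mem (hTQ ht)),
      mul_mem (mul_mem (hTR ht) hg'.2.1) (inv_mem (hTR ht)), fun x hx => ?_⟩
    have h2 := hg'.2.2 _ (conj_mem_of_normalizer (hTQ ht) hx)
    have h3 := (mem_normalizer_iff.1 (hTR ht) _).1 h2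
    have h4 : t * g * t⁻¹ * x * (t * g * t⁻¹)⁻¹ * x⁻¹ =
      t * (g * (t⁻¹ * x * t) * g⁻¹ * (t⁻¹ * x * t)⁻¹) * t⁻¹ := by group
    rw [h4]
    exact h3
  have h2 : ⁅t, g⁆ = (t * g * t⁻¹) * g⁻¹ := by rw [commutatorElement_def]
  rw [h2]
  exact mul_mem h1 (inv_mem hg')

theorem eq_zpowers_of_mem {A S : Subgroup Γ} [Finite A] {r s : ℕ} (hr : r.Prime) (hs : s.Prime)
    (hA : Nat.card A = r * s) (hSA : S ≤ A) (hne : ¬ A ≤ S) {b : Γ} (hb : b ∈ S) (hb1 : b ≠ 1) :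
    S = zpowers b ∧ (orderOf b).Prime := by
  have hfS : Finite S := Finite.of_injective _ (inclusion_injective hSA)
  have h1 : Nat.card S ∣ r * s := by rw [← hA]; exact card_dvd_of_le hSA
  have h2 : orderOf b ∣ Nat.card S := by
    have := orderOf_dvd_natCard (⟨b, hb⟩ : S)
    rwa [← Subgroup.orderOf_coe] at this
  have h3 : orderOf b ≠ 1 := fun h => hb1 (orderOf_eq_one_iff.1 h)
  have h4 : Nat.card S ≠ r * s := by
    intro h
    apply hne
    rw [eq_of_le_of_card_ge hSA (by rw [hA, h])]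
  have h5 : (Nat.card S).Prime := by
    obtain ⟨d₁, d₂, hd₁, hd₂, hd⟩ := (Nat.dvd_mul).1 h1
    rcases (Nat.dvd_prime hr).1 hd₁ with e1 | e1 <;> rcases (Nat.dvd_prime hs).1 hd₂ with e2 | e2
    · exfalso
      rw [e1, e2] at hd
      rw [← hd, one_mul, Nat.dvd_one] at h2
      exact h3 h2
    · rw [← hd, e1, one_mul, e2]; exact hs
    · rw [← hd, e2, mul_one, e1]; exact hr
    · exact absurd (by rw [← hd, e1, e2]) h4
  have h6 : orderOf b = Nat.card S := ((Nat.dvd_prime h5).1 h2).resolve_left h3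
  refine ⟨?_, by rw [h6]; exact h5⟩
  symm
  exact eq_of_le_of_card_ge (zpowers_le.2 hb) (by rw [Nat.card_zpowers, h6])

theorem sum_of_stab {H : Γ →* Module.End k W} {A L : Subgroup Γ} [Fintype A]
    (hAL : A ≤ normalizer (L : Set Γ)) {χ : Γ → k} (hsum : ∀ w, ∑ a : A, H (a : Γ) w = 0)
    (S : Subgroup Γ) [Fintype S] (hS : ∀ g, g ∈ S ↔ g ∈ A ∧ g ∈ stab L χ) :
    ∀ w, IsWt H L χ w → ∑ u : S, H (u : Γ) w = 0 := by
  classical
  intro w hw
  have h1 := sum_stab_eq_zero H hAL hw (hsum w)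
  rw [← h1]
  symm
  refine Finset.sum_bij' (fun a ha => (⟨(a : Γ), (hS _).2 ⟨a.2, (Finset.mem_filter.1 ha).2⟩⟩ : S))
    (fun u _ => (⟨(u : Γ), ((hS _).1 u.2).1⟩ : A)) ?_ ?_ ?_ ?_ ?_
  · intro a ha; exact Finset.mem_univ _
  · intro u _
    exact Finset.mem_filter.2 ⟨Finset.mem_univ _, ((hS _).1 u.2).2⟩
  · intro a ha; rfl
  · intro u _; rfl
  · intro a ha; rfl

theorem exists_mem_stab {H : Γ →* Module.End k W} {A L : Subgroup Γ} [Fintype A]
    (hAL : A ≤ normalizer (L : Set Γ)) {χ : Γ → k} (hsum : ∀ w, ∑ a : A, H (a : Γ) w = 0) {v : W}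
    (hv0 : v ≠ 0) (hv : IsWt H L χ v) : ∃ a ∈ A, a ≠ 1 ∧ a ∈ stab L χ := by
  classical
  by_contra hcon
  push Not at hcon
  have h1 := sum_stab_eq_zero H hAL hv (hsum v)
  have h2 : (Finset.univ.filter fun a' : A => (a' : Γ) ∈ stab L χ) = {1} := by
    ext a'
    simp only [Finset.mem_filter, Finset.mem_univ, true_and, Finset.mem_singleton]
    constructor
    · intro h
      by_contra h3
      exact hcon a' a'.2 (fun h4 => h3 (Subtype.ext h4)) h
    · rintro rfl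
      exact one_mem _
  rw [h2, Finset.sum_singleton] at h1
  apply hv0
  simpa using h1

end Basic

section Cases

variable {Γ : Type u} [Group Γ] [Finite Γ] {k : Type v} {W : Type w}
    [Field k] [IsAlgClosed k] [AddCommGroup W] [Module k W] [FiniteDimensional k W]

/-- the structure of the nonabelian group of order `rs` -/
structure PQ (A : Subgroup Γ) (a v : Γ) (r s : ℕ) : Prop where
  hr : r.Prime
  hs : s.Prime
  haA : a ∈ A
  hvA : v ∈ A
  ha1 : a ≠ 1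
  hv1 : v ≠ 1
  card : Nat.card A = r * s
  hAgen : ∀ S : Subgroup Γ, a ∈ S → v ∈ S → A ≤ S
  hva : ∀ x ∈ zpowers a, v * x * v⁻¹ ∈ zpowers a
  hgen : ∀ x ∈ zpowers a, x ≠ 1 → ∀ S : Subgroup Γ, v ∈ S → x * v * x⁻¹ ∈ S → A ≤ S
  dich : ∀ g ∈ A, g ≠ 1 → a ∈ zpowers g ∨ ∃ x ∈ zpowers a, x * v * x⁻¹ ∈ zpowers g

theorem nonabelian_case (H : Γ →* Module.End k W) {A Q T : Subgroup Γ} [Fintype A] {a v : Γ}
    {r s : ℕ} (hPQ : PQ A a v r s) {q : ℕ} [hqf : Fact q.Prime] (hQ : IsPGroup q Q)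
    (hAQ : A ≤ normalizer (Q : Set Γ)) (hAT : A ≤ normalizer (T : Set Γ))
    (hTQ : T ≤ normalizer (Q : Set Γ)) (hinj : ∀ x ∈ Q, H x = 1 → x = 1)
    (hsum : ∀ w : W, ∑ g : A, H (g : Γ) w = 0) (hfixQ : Q ⊓ centralizer (A : Set Γ) = ⊥)
    (hfixT : T ⊓ centralizer (A : Set Γ) = ⊥) (hcAQ : (Nat.card A).Coprime (Nat.card Q))
    (hcAT : (Nat.card A).Coprime (Nat.card T)) (hcTQ : (Nat.card T).Coprime (Nat.card Q))
    (hTs : Group.IsSolvable T) (hQT : ⁅Q, T⁆ = Q) (hkq : (q : k) ≠ 0)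
    (hkA : (Nat.card A : k) ≠ 0) (hDne : ⁅Q, Q⁆ ≠ ⊥)
    (hCa : ∀ t ∈ T, Commute t a → ∀ y ∈ Q, Commute y a → Commute t y)
    (hTD : T ≤ centralizer ((⁅Q, Q⁆ : Subgroup Γ) : Set Γ))
    (hDc : ∀ z ∈ ⁅Q, Q⁆, ∀ y ∈ Q, Commute y z) (hTab : ⁅T, T⁆ ≤ centralizer (Q : Set Γ))
    (hCZ : Q ⊓ centralizer (Q : Set Γ) ≤ ⁅Q, Q⁆) (hQq : ∀ x ∈ Q, x ^ q ∈ ⁅Q, Q⁆) : False := by
  classical
  have hq := hqf.out
  set D : Subgroup Γ := ⁅Q, Q⁆ with hD
  have hDQ : D ≤ Q := le_normalizer_iff_commutator_le_left.mp le_normalizer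
  have hQs : Group.IsSolvable Q := by
    have : Group.IsNilpotent Q := hQ.isNilpotent
    infer_instance
  have hDs : Group.IsSolvable D := isSolvable_of_le hDQ hQs
  have hcomD : ∀ x ∈ Q, ∀ y ∈ Q, ⁅x, y⁆ ∈ D := fun x hx y hy => commutator_mem_commutator hx hy
  have hAD : A ≤ normalizer (D : Set Γ) := Lib.H32PSolv.le_normalizer_commutator hAQ hAQ
  have hQD : Q ≤ normalizer (D : Set Γ) :=
    Lib.H32PSolv.le_normalizer_commutator le_normalizer le_normalizer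
  have hCT : Q ⊓ centralizer (T : Set Γ) ≤ D := mem_commutator_of_centralizer hTQ hQT hcTQ
  have hDq : ∀ z ∈ D, z ^ q = 1 := by
    have h1 : ∀ x ∈ Q, ∀ y ∈ Q, ∀ i : ℕ, ⁅x ^ i, y⁆ = ⁅x, y⁆ ^ i := by
      intro x hx y hy i
      induction i with
      | zero => simp
      | succ i ih' =>
        have h2 : ⁅x ^ (i + 1), y⁆ = x ^ i * ⁅x, y⁆ * (x ^ i)⁻¹ * ⁅x ^ i, y⁆ := by
          rw [pow_succ]; simp only [commutatorElement_def]; group
        rw [h2, ih', (hDc _ (hcomD x hx y hy) _ (pow_mem hx i)).eq, mul_inv_cancel_right,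
          pow_succ']
    let E : Subgroup Γ :=
      { carrier := {z | z ∈ D ∧ z ^ q = 1}
        one_mem' := ⟨one_mem _, one_pow _⟩
        mul_mem' := by
          rintro a b ⟨ha, ha'⟩ ⟨hb, hb'⟩
          exact ⟨mul_mem ha hb, by rw [(hDc b hb a (hDQ ha)).mul_pow, ha', hb', one_mul]⟩
        inv_mem' := by
          rintro a ⟨ha, ha'⟩
          exact ⟨inv_mem ha, by rw [inv_pow, ha', inv_one]⟩ }
    have h2 : D ≤ E := by
      rw [hD, commutator_le]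
      intro x hx y hy
      refine ⟨hcomD x hx y hy, ?_⟩
      rw [← h1 x hx y hy q, commutatorElement_eq_one_iff_commute]
      exact (hDc _ (hQq x hx) y hy).symm
    intro z hz
    exact (h2 hz).2
  have hcAD : (Nat.card A).Coprime (Nat.card D) := hcAQ.coprime_dvd_right (card_dvd_of_le hDQ)
  have hfixD : D ⊓ centralizer (A : Set Γ) = ⊥ := by
    rw [eq_bot_iff, ← hfixQ]
    exact inf_le_inf_right _ hDQ
  have hTμ : ∀ μ : Γ → k, T ≤ stab D μ := by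
    intro μ t ht
    have hc := hTD ht
    refine ⟨?_, fun x hx => ?_⟩
    · exact (centralizer_le_normalizer _) hc
    · have h1 := mem_centralizer_iff.1 hc x hx
      rw [mul_assoc, h1, inv_mul_cancel_left]
  have hqA : ∀ {β : ℕ}, β.Prime → β ∣ Nat.card A → β ≠ q := by
    rintro β hβ hd rfl
    have hne : Nat.card Q ≠ 1 := by
      intro h
      apply hDne
      rw [eq_bot_iff]
      rw [Subgroup.card_eq_one.1 h] at hDQ
      exact hDQ
    obtain ⟨n, hn⟩ := IsPGroup.iff_card.1 hQ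
    have hn0 : n ≠ 0 := by rintro rfl; exact hne (by rw [hn, pow_zero])
    have h1 : β ∣ Nat.card Q := by rw [hn]; exact dvd_pow_self _ hn0
    have h2 := Nat.dvd_gcd hd h1
    rw [hcAQ.gcd_eq_one, Nat.dvd_one] at h2
    exact hβ.ne_one h2
  -- nontrivial weights of `D`
  have hnoA : ∀ (μ : Γ → k) (v₀ : W), v₀ ≠ 0 → IsWt H D μ v₀ → (∃ z ∈ D, μ z ≠ 1) →
      ¬ A ≤ stab D μ := by
    rintro μ v₀ hv₀ hμ ⟨z, hz, hz1⟩ hle
    exact hz1 (eq_one_of_fixed hμ hv₀ hle hcAD (Or.inr hDs) hfixD z hz)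
  have hrad : ∀ (μ : Γ → k) (v₀ : W), v₀ ≠ 0 → IsWt H D μ v₀ → (∃ z ∈ D, μ z ≠ 1) →
      ∀ R : Subgroup Γ, (∀ x, x ∈ R ↔ x ∈ Q ∧ ∀ y ∈ Q, μ ⁅x, y⁆ = 1) → ∀ b ∈ A, b ≠ 1 →
      b ∈ stab D μ → b ∈ triv Q R := by
    rintro μ v₀ hv₀ hμ hnt R hR b hbA hb1 hbμ
    obtain ⟨hSeq, hβ⟩ := eq_zpowers_of_mem (A := A) (S := A ⊓ stab D μ) hPQ.hr hPQ.hs hPQ.card
      inf_le_left (fun h => hnoA μ v₀ hv₀ hμ hnt (h.trans inf_le_right))
      (mem_inf.2 ⟨hbA, hbμ⟩) hb1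
    let _ : Fintype (zpowers b) := Fintype.ofFinite _
    have hsumb := sum_of_stab hAD (χ := μ) hsum (zpowers b) (by
      intro g
      rw [← hSeq]
      exact Iff.rfl)
    obtain ⟨z₀, hz₀, hμz₀⟩ := hnt
    have hdvd : orderOf b ∣ Nat.card A := by
      have := orderOf_dvd_natCard (⟨b, hbA⟩ : A)
      rwa [← Subgroup.orderOf_coe] at this
    have hβq : orderOf b ≠ q := hqA hβ hdvd
    have hTq : (Nat.card T).Coprime q := by
      obtain ⟨n, hn⟩ := IsPGroup.iff_card.1 hQ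
      have hn0 : n ≠ 0 := by
        rintro rfl
        rw [pow_zero] at hn
        apply hDne
        rw [eq_bot_iff]
        rw [Subgroup.card_eq_one.1 hn] at hDQ
        exact hDQ
      rw [hn] at hcTQ
      exact hcTQ.coprime_dvd_right (dvd_pow_self q hn0)
    have hkβ : (orderOf b : k) ≠ 0 := by
      intro h
      obtain ⟨c, hc⟩ := hdvd
      apply hkA
      rw [hc, Nat.cast_mul, h, zero_mul]
    have htriv := FpfPQ1.trivial_of_prime H hQ hTQ (hAQ hbA) (hAT hbA) hDQ hDc le_rfl (hTμ μ) hbμ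
      hv₀ hμ hsumb hβ (pow_orderOf_eq_one b) hβq
      (hcAT.coprime_dvd_left hdvd).symm hCT hTab hcTQ hTq hQq hDq hz₀ hμz₀ hR hkq hkβ
    obtain ⟨-, -, hbR⟩ := SympSec.radical_props (X := zpowers b) hDQ hDc le_rfl
      (isWt_one hμ hv₀) (zpowers_le.2 (hAQ hbA)) (zpowers_le.2 hbμ) hR
    exact ⟨hAQ hbA, hbR (mem_zpowers b), htriv⟩
  have hradT : ∀ (μ : Γ → k) (v₀ : W), v₀ ≠ 0 → IsWt H D μ v₀ →
      ∀ R : Subgroup Γ, (∀ x, x ∈ R ↔ x ∈ Q ∧ ∀ y ∈ Q, μ ⁅x, y⁆ = 1) →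
      D ≤ R ∧ Q ≤ normalizer (R : Set Γ) ∧ T ≤ normalizer (R : Set Γ) := by
    intro μ v₀ hv₀ hμ R hR
    exact SympSec.radical_props (X := T) hDQ hDc le_rfl
      (isWt_one hμ hv₀) hTQ (hTμ μ) hR
  have hexR : ∀ (μ : Γ → k) (v₀ : W), v₀ ≠ 0 → IsWt H D μ v₀ →
      ∃ R : Subgroup Γ, ∀ x, x ∈ R ↔ x ∈ Q ∧ ∀ y ∈ Q, μ ⁅x, y⁆ = 1 := by
    intro μ v₀ hv₀ hμ
    exact SympSec.exists_radical hDc le_rfl (isWt_one hμ hv₀)
      (fun x hx y hy => isWt_mul hμ hv₀ hx hy)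
  -- `a` fixes no nontrivial weight
  have hcoa : (Nat.card (zpowers a)).Coprime (Nat.card Q) :=
    hcAQ.coprime_dvd_left (card_dvd_of_le (zpowers_le.2 hPQ.haA))
  have hcoaT : (Nat.card (zpowers a)).Coprime (Nat.card T) :=
    hcAT.coprime_dvd_left (card_dvd_of_le (zpowers_le.2 hPQ.haA))
  have hnoa : ∀ (μ : Γ → k) (v₀ : W), v₀ ≠ 0 → IsWt H D μ v₀ → (∃ z ∈ D, μ z ≠ 1) →
      a ∉ stab D μ := by
    intro μ v₀ hv₀ hμ hnt haμ
    obtain ⟨R, hR⟩ := hexR μ v₀ hv₀ hμ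
    have hRQ : R ≤ Q := fun x hx => ((hR x).1 hx).1
    obtain ⟨hDR, hQR, hTR⟩ := hradT μ v₀ hv₀ hμ R hR
    have hat := hrad μ v₀ hv₀ hμ hnt R hR a hPQ.haA hPQ.ha1 haμ
    have haQ : zpowers a ≤ normalizer (Q : Set Γ) := zpowers_le.2 (hAQ hPQ.haA)
    have haT : zpowers a ≤ normalizer (T : Set Γ) := zpowers_le.2 (hAT hPQ.haA)
    have hQa : ⁅Q, zpowers a⁆ ≤ R := by
      rw [commutator_le]
      intro x hx g hg
      have hg' : g ∈ triv Q R := (zpowers_le.2 hat) hg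
      have h1 := inv_mem (hg'.2.2 x hx)
      have h2 : ⁅x, g⁆ = (g * x * g⁻¹ * x⁻¹)⁻¹ := by rw [commutatorElement_def]; group
      rw [h2]
      exact h1
    have hTt : T ≤ triv Q R := by
      intro t ht
      obtain ⟨s, hs, c, hc, rfl⟩ := exists_eq_mul_of_mem haT hcoaT (Or.inr hTs) ht
      refine mul_mem (commutator_le_triv hTQ hTR hat hs) ⟨hTQ hc.1, hTR hc.1, fun x hx => ?_⟩
      obtain ⟨x₁, hx₁, x₂, hx₂, rfl⟩ := exists_eq_mul_of_mem haQ hcoa (Or.inr hQs) hx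
      have hca : Commute c a := (mem_centralizer_iff.1 hc.2 a (mem_zpowers a)).symm
      have hxa : Commute x₂ a := (mem_centralizer_iff.1 hx₂.2 a (mem_zpowers a)).symm
      have h1 := hCa c hc.1 hca x₂ hx₂.1 hxa
      have h2 : c * (x₁ * x₂) * c⁻¹ * (x₁ * x₂)⁻¹ = (c * x₁ * c⁻¹) * (c * x₂ * c⁻¹) * x₂⁻¹ * x₁⁻¹ := by
        group
      rw [h2, h1.eq, mul_inv_cancel_right, mul_inv_cancel_right]
      exact mul_mem ((mem_normalizer_iff.1 (hTR hc.1) _).1 (hQa hx₁)) (inv_mem (hQa hx₁))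
    have hQR' : Q ≤ R := by
      rw [← hQT, commutator_le]
      intro x hx t ht
      have h1 := inv_mem ((hTt ht).2.2 x hx)
      have h2 : ⁅x, t⁆ = (t * x * t⁻¹ * x⁻¹)⁻¹ := by rw [commutatorElement_def]; group
      rw [h2]
      exact h1
    obtain ⟨z₀, hz₀, hμz₀⟩ := hnt
    apply hμz₀
    have hker : D ≤ kerWt hμ hv₀ := by
      have h9 : ∀ L : Subgroup Γ, (∀ x ∈ Q, ∀ y ∈ Q, ⁅x, y⁆ ∈ L) → D ≤ L := by
        intro L hL
        rw [hD, commutator_le]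
        exact hL
      exact h9 _ fun x hx y hy => ⟨hcomD x hx y hy, ((hR x).1 (hQR' hx)).2 y hy⟩
    exact (hker hz₀).2
  have hexv : ∀ (μ : Γ → k) (v₀ : W), v₀ ≠ 0 → IsWt H D μ v₀ → (∃ z ∈ D, μ z ≠ 1) →
      ∃ x ∈ zpowers a, x * v * x⁻¹ ∈ stab D μ := by
    intro μ v₀ hv₀ hμ hnt
    obtain ⟨g, hgA, hg1, hgμ⟩ := exists_mem_stab hAD hsum hv₀ hμ
    rcases hPQ.dich g hgA hg1 with h | ⟨x, hx, hxg⟩
    · exact absurd ((zpowers_le.2 hgμ) h) (hnoa μ v₀ hv₀ hμ hnt)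
    · exact ⟨x, hx, (zpowers_le.2 hgμ) hxg⟩
  -- the subgroup `Q₀`
  let 𝓡 : Set (Subgroup Γ) := {R | ∃ (μ : Γ → k) (v₀ : W), v₀ ≠ 0 ∧ IsWt H D μ v₀ ∧
    (∃ z ∈ D, μ z ≠ 1) ∧ v ∈ stab D μ ∧ ∀ x, x ∈ R ↔ x ∈ Q ∧ ∀ y ∈ Q, μ ⁅x, y⁆ = 1}
  set Q₀ : Subgroup Γ := Q ⊓ sInf 𝓡 with hQ₀
  have hQ₀mem : ∀ x, x ∈ Q₀ ↔ x ∈ Q ∧ ∀ R ∈ 𝓡, x ∈ R := by
    intro x
    rw [hQ₀, mem_inf, Subgroup.mem_sInf]
  have hnorm : ∀ g, g ∈ normalizer (Q : Set Γ) → (∀ R ∈ 𝓡, g ∈ normalizer (R : Set Γ)) →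
      g ∈ normalizer (Q₀ : Set Γ) := by
    intro g hg hgR
    rw [mem_normalizer_iff]
    intro x
    rw [hQ₀mem, hQ₀mem, ← mem_normalizer_iff.1 hg x]
    refine and_congr_right fun _ => forall₂_congr fun R hR => ?_
    exact mem_normalizer_iff.1 (hgR R hR) x
  have hRprop : ∀ R ∈ 𝓡, D ≤ R ∧ Q ≤ normalizer (R : Set Γ) ∧ T ≤ normalizer (R : Set Γ) ∧
      v ∈ triv Q R := by
    rintro R ⟨μ, v₀, hv₀, hμ, hnt, hvμ, hR⟩
    obtain ⟨h1, h2, h3⟩ := hradT μ v₀ hv₀ hμ R hR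
    exact ⟨h1, h2, h3, hrad μ v₀ hv₀ hμ hnt R hR v hPQ.hvA hPQ.hv1 hvμ⟩
  have hQD' := FpfPQ2.le_of_family (Q₀ := Q₀) hPQ.haA hPQ.hvA hPQ.hAgen hPQ.hva hPQ.hgen hAQ hAT hTQ
    hcAQ hcAT hcTQ hQs hTs hfixT hfixQ hCT
    (by
      intro x hx
      rw [hQ₀mem]
      exact ⟨hDQ hx, fun R hR => (hRprop R hR).1 hx⟩)
    inf_le_left
    (fun t ht => hnorm t (hTQ ht) fun R hR => (hRprop R hR).2.2.1 ht)
    (hnorm v (hAQ hPQ.hvA) fun R hR => (hRprop R hR).2.2.2.2.1)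
    (by
      intro x hx
      rw [hQ₀mem]
      exact ⟨mul_mem ((le_normalizer_iff.1 hAQ) v hPQ.hvA x hx) (inv_mem hx),
        fun R hR => (hRprop R hR).2.2.2.2.2 x hx⟩)
    (by
      intro s hs x hx
      have hsT : s ∈ T := (le_normalizer_iff_commutator_le_left.mp
        (zpowers_le.2 (hAT hPQ.hvA))) hs
      rw [hQ₀mem]
      refine ⟨mul_mem (inv_mem hx) ((le_normalizer_iff.1 hTQ) s hsT x hx), fun R hR => ?_⟩
      obtain ⟨h1, h2, h3, h4⟩ := hRprop R hR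
      have h5 := (commutator_le_triv hTQ h3 h4 hs).2.2 x hx
      have h6 := (mem_normalizer_iff.1 (h2 (inv_mem hx)) _).1 h5
      have h7 : x⁻¹ * (s * x * s⁻¹ * x⁻¹) * x⁻¹⁻¹ = x⁻¹ * (s * x * s⁻¹) := by group
      rwa [h7] at h6)
    (by
      intro y hy hyx
      apply hCZ
      refine ⟨hy, ?_⟩
      change y ∈ centralizer (Q : Set Γ)
      rw [mem_centralizer_iff]
      intro y' hy'
      have h0 : ⁅y, y'⁆ = 1 := by
        apply hinj _ (hDQ (hcomD y hy y' hy'))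
        ext w
        refine eq_on_of_weights H ⊤ D (fun _ _ _ _ => trivial) ?_ q hkq hDq (H ⁅y, y'⁆) ?_ w trivial
        · intro x hx z hz u _
          rw [← Module.End.mul_apply, ← Module.End.mul_apply, ← map_mul, ← map_mul,
            (hDc z hz x (hDQ hx)).eq]
        · intro v₀ _ μ hv₀ hμ
          rw [hμ _ (hcomD y hy y' hy')]
          by_cases hnt : ∃ z ∈ D, μ z ≠ 1
          swap
          · push Not at hnt
            rw [hnt _ (hcomD y hy y' hy'), one_smul]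
          obtain ⟨x, hx, hxv⟩ := hexv μ v₀ hv₀ hμ hnt
          have hxA : x ∈ A := (zpowers_le.2 hPQ.haA) hx
          have hxi : x⁻¹ ∈ normalizer (D : Set Γ) := inv_mem (hAD hxA)
          have hμ' := isWt_tw H hμ hxi
          have hv' : v ∈ stab D (tw x⁻¹ μ) := by
            rw [mem_stab_tw hxi, inv_inv]
            exact hxv
          have hnt' : ∃ z ∈ D, tw x⁻¹ μ z ≠ 1 := by
            obtain ⟨z, hz, hz1⟩ := hnt
            refine ⟨x⁻¹ * z * x, conj_mem_of_normalizer (hAD hxA) hz, ?_⟩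
            rw [tw_apply]
            have h1 : (x⁻¹)⁻¹ * (x⁻¹ * z * x) * x⁻¹ = z := by group
            rw [h1]
            exact hz1
          have hv₀' := ne_zero_of_H hv₀ (H := H) x⁻¹
          obtain ⟨R, hR⟩ := hexR _ _ hv₀' hμ'
          have h1 := ((hQ₀mem _).1 (hyx x hx)).2 R ⟨_, _, hv₀', hμ', hnt', hv', hR⟩
          have h2 := ((hR _).1 h1).2 (x⁻¹ * y' * x) (conj_mem_of_normalizer (hAQ hxA) hy')
          rw [tw_apply] at h2
          have h3 : (x⁻¹)⁻¹ * ⁅x⁻¹ * y * x, x⁻¹ * y' * x⁆ * x⁻¹ = ⁅y, y'⁆ := by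
            simp only [commutatorElement_def]; group
          rw [h3] at h2
          rw [h2, one_smul]
      exact (commutatorElement_eq_one_iff_mul_comm.1 h0).symm)
  -- contradiction
  have hQne : Nontrivial Q := by
    rw [nontrivial_iff_ne_bot]
    intro h
    apply hDne
    rw [eq_bot_iff]
    rw [h] at hDQ
    exact hDQ
  have h1 : _root_.commutator Q < ⊤ := Group.IsSolvable.commutator_lt_top_of_nontrivial Q
  apply h1.ne
  have h2 : D = Q := le_antisymm hDQ hQD'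
  rw [hD, ← Q.map_subtype_commutator] at h2
  have h3 : (_root_.commutator Q).map Q.subtype = (⊤ : Subgroup Q).map Q.subtype := by
    rw [h2, ← MonoidHom.range_eq_map, range_subtype]
  exact Subgroup.map_injective Q.subtype_injective h3

theorem abelian_case (H : Γ →* Module.End k W) {A Q T : Subgroup Γ} [Fintype A] {a v : Γ}
    {r s : ℕ} (hPQ : PQ A a v r s) {q : ℕ} [hqf : Fact q.Prime] (hQ : IsPGroup q Q)
    (hAQ : A ≤ normalizer (Q : Set Γ)) (hAT : A ≤ normalizer (T : Set Γ))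
    (hTQ : T ≤ normalizer (Q : Set Γ)) (hinj : ∀ x ∈ Q, H x = 1 → x = 1)
    (hsum : ∀ w : W, ∑ g : A, H (g : Γ) w = 0) (hfixQ : Q ⊓ centralizer (A : Set Γ) = ⊥)
    (hfixT : T ⊓ centralizer (A : Set Γ) = ⊥) (hcAQ : (Nat.card A).Coprime (Nat.card Q))
    (hcAT : (Nat.card A).Coprime (Nat.card T)) (hcTQ : (Nat.card T).Coprime (Nat.card Q))
    (hTs : Group.IsSolvable T) (hQT : ⁅Q, T⁆ = Q) (hkq : (q : k) ≠ 0)
    (hD : ⁅Q, Q⁆ = ⊥) (hQne : Q ≠ ⊥)
    (hCa : ∀ t ∈ T, Commute t a → ∀ y ∈ Q, Commute y a → Commute t y) : False := by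
  classical
  have hq := hqf.out
  have hQs : Group.IsSolvable Q := by
    have : Group.IsNilpotent Q := hQ.isNilpotent
    infer_instance
  have hab : ∀ x ∈ Q, ∀ y ∈ Q, Commute x y := by
    intro x hx y hy
    have h1 : ⁅x, y⁆ ∈ ⁅Q, Q⁆ := commutator_mem_commutator hx hy
    rw [hD, mem_bot] at h1
    exact commutatorElement_eq_one_iff_commute.1 h1
  have hCT : Q ⊓ centralizer (T : Set Γ) ≤ ⁅Q, Q⁆ := mem_commutator_of_centralizer hTQ hQT hcTQ
  have hcardk : (Nat.card Q : k) ≠ 0 := by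
    intro h
    obtain ⟨m, hm⟩ := IsPGroup.iff_card.1 hQ
    rw [hm, Nat.cast_pow] at h
    exact pow_ne_zero m hkq h
  have hpowcard : ∀ x ∈ Q, x ^ Nat.card Q = 1 := by
    intro x hx
    have h1 : (⟨x, hx⟩ : Q) ^ Nat.card Q = 1 := pow_card_eq_one'
    exact congrArg (Subtype.val : Q → Γ) h1
  have hcoa : (Nat.card (zpowers a)).Coprime (Nat.card Q) :=
    hcAQ.coprime_dvd_left (card_dvd_of_le (zpowers_le.2 hPQ.haA))
  have hcoaT : (Nat.card (zpowers a)).Coprime (Nat.card T) :=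
    hcAT.coprime_dvd_left (card_dvd_of_le (zpowers_le.2 hPQ.haA))
  have haT : zpowers a ≤ normalizer (T : Set Γ) := zpowers_le.2 (hAT hPQ.haA)
  -- nontrivial weights
  have hnoA : ∀ (χ : Γ → k) (v₀ : W), v₀ ≠ 0 → IsWt H Q χ v₀ → (∃ z ∈ Q, χ z ≠ 1) →
      ¬ A ≤ stab Q χ := by
    rintro χ v₀ hv₀ hχ ⟨z, hz, hz1⟩ hle
    exact hz1 (eq_one_of_fixed hχ hv₀ hle hcAQ (Or.inr hQs) hfixQ z hz)
  have hnttw : ∀ (χ : Γ → k), (∃ z ∈ Q, χ z ≠ 1) → ∀ g ∈ normalizer (Q : Set Γ),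
      ∃ z ∈ Q, tw g χ z ≠ 1 := by
    rintro χ ⟨z, hz, hz1⟩ g hg
    refine ⟨g * z * g⁻¹, (mem_normalizer_iff.1 hg z).1 hz, ?_⟩
    rw [tw_apply]
    have h1 : g⁻¹ * (g * z * g⁻¹) * g = z := by group
    rw [h1]
    exact hz1
  have hnoa : ∀ (χ : Γ → k) (v₀ : W), v₀ ≠ 0 → IsWt H Q χ v₀ → (∃ z ∈ Q, χ z ≠ 1) →
      a ∉ stab Q χ := by
    intro χ v₀ hv₀ hχ hnt haχ
    -- the part of `T` commuting with `a`
    have hCTa : ∀ t ∈ T, Commute t a → t ∈ stab Q χ := fun t ht hta =>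
      S3Fpf.mem_stab_of_commute hχ hv₀ haχ hcoa hQs (hTQ ht) hta (hCa t ht hta)
    -- if `a` fixes `tw t χ` then `t` fixes `χ`
    have hkey : ∀ t ∈ T, a ∈ stab Q (tw t χ) → t ∈ stab Q χ := by
      intro t ht hat
      rw [mem_stab_tw (hTQ ht)] at hat
      set T' : Subgroup Γ := T ⊓ stab Q χ with hT'
      have hT's : Group.IsSolvable T' := isSolvable_of_le inf_le_left hTs
      have hstabn : zpowers a ≤ normalizer (T' : Set Γ) := by
        rw [le_normalizer_iff]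
        intro g hg x hx
        have hgs : g ∈ stab Q χ := (zpowers_le.2 haχ) hg
        exact mem_inf.2 ⟨(le_normalizer_iff.1 haT) g hg x hx.1,
          mul_mem (mul_mem hgs hx.2) (inv_mem hgs)⟩
      obtain ⟨d, hd, htd⟩ := exists_mul_mem_centralizer (A := zpowers a) (D := T') hstabn
        (hcoaT.coprime_dvd_right (card_dvd_of_le inf_le_left)) (Or.inr hT's) t (by
          intro g hg
          have hgs : g ∈ stab Q χ := (zpowers_le.2 haχ) hg
          have h1 : t⁻¹ * g * t ∈ stab Q χ := by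
            obtain ⟨i, rfl⟩ := mem_zpowers_iff.1 hg
            have h2 : t⁻¹ * a ^ i * t = (t⁻¹ * a * t) ^ i := by
              have := conj_zpow (a := t⁻¹) (b := a) (i := i)
              rw [inv_inv] at this
              exact this.symm
            rw [h2]
            exact zpow_mem hat i
          have h2 : t⁻¹ * (g * t * g⁻¹) = (t⁻¹ * g * t) * g⁻¹ := by group
          refine mem_inf.2 ⟨mul_mem (inv_mem ht) ((le_normalizer_iff.1 haT) g hg t ht), ?_⟩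
          rw [h2]
          exact mul_mem h1 (inv_mem hgs))
      have h1 := hCTa (t * d) (mul_mem ht hd.1)
        (mem_centralizer_iff.1 htd a (mem_zpowers a)).symm
      have h2 := mul_mem h1 (inv_mem hd.2)
      rwa [mul_inv_cancel_right] at h2
    have hTχ : T ≤ stab Q χ := by
      intro t ht
      obtain ⟨g, hgA, hg1, hgχ⟩ := exists_mem_stab hAQ hsum (ne_zero_of_H hv₀ (H := H) t)
        (isWt_tw H hχ (hTQ ht))
      rcases hPQ.dich g hgA hg1 with h | ⟨x, hx, hxg⟩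
      · exact hkey t ht ((zpowers_le.2 hgχ) h)
      · exfalso
        set v' := x * v * x⁻¹ with hv'
        have hxA : x ∈ A := (zpowers_le.2 hPQ.haA) hx
        have hv'A : v' ∈ A := mul_mem (mul_mem hxA hPQ.hvA) (inv_mem hxA)
        have hv'χ : v' ∈ stab Q (tw t χ) := (zpowers_le.2 hgχ) hxg
        rw [mem_stab_tw (hTQ ht)] at hv'χ
        -- `t' = (v' t⁻¹ v'⁻¹) t`
        set t' := v' * t⁻¹ * v'⁻¹ * t with ht'
        have ht'T : t' ∈ T := mul_mem ((le_normalizer_iff.1 hAT) v' hv'A _ (inv_mem ht)) ht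
        have hv't' : t'⁻¹ * v' ∈ stab Q χ := by
          have h1 : t'⁻¹ * v' = t⁻¹ * v' * t := by rw [ht']; group
          rw [h1]; exact hv'χ
        have h1 : t' ∈ stab Q χ := by
          apply hkey t' ht'T
          rw [mem_stab_tw (hTQ ht'T)]
          have h2 : t'⁻¹ * a * t' = (t'⁻¹ * v') * (v'⁻¹ * a * v') * (t'⁻¹ * v')⁻¹ := by group
          rw [h2]
          have h3 : v'⁻¹ * a * v' ∈ zpowers a := by
            have hxv : ∀ y ∈ zpowers a, v⁻¹ * y * v ∈ zpowers a := by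
              intro y hy
              have h1 : (zpowers a).map (MulAut.conj v).toMonoidHom ≤ zpowers a := by
                rintro _ ⟨z, hz, rfl⟩
                exact hPQ.hva z hz
              have h2 : (zpowers a).map (MulAut.conj v).toMonoidHom = zpowers a :=
                eq_of_le_of_card_ge h1 (by rw [card_map_of_injective (MulAut.conj v).injective])
              rw [← h2] at hy
              obtain ⟨z, hz, rfl⟩ := hy
              have h3 : v⁻¹ * (v * z * v⁻¹) * v = z := by group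
              change v⁻¹ * (v * z * v⁻¹) * v ∈ zpowers a
              rw [h3]
              exact hz
            have h4 : v'⁻¹ * a * v' = x * (v⁻¹ * (x⁻¹ * a * x) * v) * x⁻¹ := by rw [hv']; group
            rw [h4]
            have h5 : x⁻¹ * a * x ∈ zpowers a := mul_mem (mul_mem (inv_mem hx) (mem_zpowers a)) hx
            exact mul_mem (mul_mem hx (hxv _ h5)) (inv_mem hx)
          exact mul_mem (mul_mem hv't' ((zpowers_le.2 haχ) h3)) (inv_mem hv't')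
        have h2 : v' ∈ stab Q χ := by
          have h3 := mul_mem h1 hv't'
          rwa [mul_inv_cancel_left] at h3
        apply hnoA χ v₀ hv₀ hχ hnt
        apply hPQ.hAgen _ haχ
        have h3 : x ∈ stab Q χ := (zpowers_le.2 haχ) hx
        have h4 := mul_mem (mul_mem (inv_mem h3) h2) h3
        have h5 : x⁻¹ * v' * x = v := by rw [hv']; group
        rwa [h5] at h4
    obtain ⟨z, hz, hz1⟩ := hnt
    have h1 := commutator_le_kerWt hχ hv₀ hTχ
    rw [hQT] at h1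
    exact hz1 (h1 hz).2
  have hexv : ∀ (χ : Γ → k) (v₀ : W), v₀ ≠ 0 → IsWt H Q χ v₀ → (∃ z ∈ Q, χ z ≠ 1) →
      ∃ x ∈ zpowers a, x * v * x⁻¹ ∈ stab Q χ := by
    intro χ v₀ hv₀ hχ hnt
    obtain ⟨g, hgA, hg1, hgχ⟩ := exists_mem_stab hAQ hsum hv₀ hχ
    rcases hPQ.dich g hgA hg1 with h | ⟨x, hx, hxg⟩
    · exact absurd ((zpowers_le.2 hgχ) h) (hnoa χ v₀ hv₀ hχ hnt)
    · exact ⟨x, hx, (zpowers_le.2 hgχ) hxg⟩
  -- the `T`-orbit of a `v`-fixed weight
  have horb : ∀ (χ : Γ → k) (v₀ : W), v₀ ≠ 0 → IsWt H Q χ v₀ → v ∈ stab Q χ → ∀ t ∈ T,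
      v ∈ stab Q (tw t χ) := by
    intro χ v₀ hv₀ hχ hvχ t ht
    by_cases hnt : ∃ z ∈ Q, χ z ≠ 1
    swap
    · push Not at hnt
      refine ⟨hAQ hPQ.hvA, fun x hx => ?_⟩
      have hx' := conj_mem_of_normalizer (hAQ hPQ.hvA) hx
      rw [tw_apply, tw_apply, hnt _ (conj_mem_of_normalizer (hTQ ht) hx'),
        hnt _ (conj_mem_of_normalizer (hTQ ht) hx)]
    obtain ⟨x, hx, hxv⟩ := hexv _ _ (ne_zero_of_H hv₀ (H := H) t) (isWt_tw H hχ (hTQ ht))
      (hnttw χ hnt t (hTQ ht))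
    by_cases hx1 : x = 1
    · rw [hx1, one_mul, inv_one, mul_one] at hxv
      exact hxv
    exfalso
    set v' := x * v * x⁻¹ with hv'
    have hxA : x ∈ A := (zpowers_le.2 hPQ.haA) hx
    have hv'A : v' ∈ A := mul_mem (mul_mem hxA hPQ.hvA) (inv_mem hxA)
    rw [mem_stab_tw (hTQ ht)] at hxv
    let G₂ : Subgroup Γ :=
      { carrier := {g | g ∈ normalizer (T : Set Γ) ∧ ∃ y ∈ T, y⁻¹ * g ∈ stab Q χ}
        one_mem' := ⟨one_mem _, 1, one_mem _, by rw [inv_one, one_mul]; exact one_mem _⟩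
        mul_mem' := by
          rintro g h ⟨hg, y, hy, hgy⟩ ⟨hh, z, hz, hhz⟩
          have hn : y⁻¹ * g ∈ normalizer (T : Set Γ) := mul_mem (inv_mem (le_normalizer hy)) hg
          refine ⟨mul_mem hg hh, y * ((y⁻¹ * g) * z * (y⁻¹ * g)⁻¹),
            mul_mem hy ((mem_normalizer_iff.1 hn z).1 hz), ?_⟩
          have h1 : (y * ((y⁻¹ * g) * z * (y⁻¹ * g)⁻¹))⁻¹ * (g * h) =
            (y⁻¹ * g) * (z⁻¹ * h) := by group
          rw [h1]
          exact mul_mem hgy hhz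
        inv_mem' := by
          rintro g ⟨hg, y, hy, hgy⟩
          refine ⟨inv_mem hg, g⁻¹ * y⁻¹ * g, conj_mem_of_normalizer hg (inv_mem hy), ?_⟩
          have h2 : (g⁻¹ * y⁻¹ * g)⁻¹ * g⁻¹ = (y⁻¹ * g)⁻¹ := by group
          rw [h2]
          exact inv_mem hgy }
    have hAG : A ≤ G₂ := by
      apply hPQ.hgen x hx hx1
      · exact ⟨hAT hPQ.hvA, 1, one_mem _, by rw [inv_one, one_mul]; exact hvχ⟩
      · refine ⟨hAT hv'A, v' * t⁻¹ * v'⁻¹ * t,
          mul_mem ((le_normalizer_iff.1 hAT) v' hv'A _ (inv_mem ht)) ht, ?_⟩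
        have h1 : (v' * t⁻¹ * v'⁻¹ * t)⁻¹ * (x * v * x⁻¹) = t⁻¹ * v' * t := by
          rw [← hv']; group
        rw [h1]
        exact hxv
    obtain ⟨y, hy, hAy⟩ := exists_fixed_weight' (D := Q) (K := T) (A := A) hTQ hAQ hAT hcAT
      (Or.inr hTs) χ (fun g hg => (hAG hg).2)
    exact hnoA _ _ (ne_zero_of_H hv₀ (H := H) y) (isWt_tw H hχ (hTQ hy))
      (hnttw χ hnt y (hTQ hy)) hAy
  -- the subgroup `Q₀`
  let Q₀ : Subgroup Γ :=
    { carrier := {x | x ∈ Q ∧ ∀ (χ : Γ → k) (v₀ : W), v₀ ≠ 0 → IsWt H Q χ v₀ → v ∈ stab Q χ →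
        χ x = 1}
      one_mem' := ⟨one_mem _, fun χ v₀ hv₀ hχ _ => isWt_one hχ hv₀⟩
      mul_mem' := by
        rintro x y ⟨hx, hx'⟩ ⟨hy, hy'⟩
        exact ⟨mul_mem hx hy, fun χ v₀ hv₀ hχ hv => by
          rw [isWt_mul hχ hv₀ hx hy, hx' χ v₀ hv₀ hχ hv, hy' χ v₀ hv₀ hχ hv, one_mul]⟩
      inv_mem' := by
        rintro x ⟨hx, hx'⟩
        refine ⟨inv_mem hx, fun χ v₀ hv₀ hχ hv => ?_⟩
        have h1 := isWt_inv hχ hv₀ hx
        rwa [hx' χ v₀ hv₀ hχ hv, one_mul] at h1 }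
  have hvQ : v ∈ normalizer (Q : Set Γ) := hAQ hPQ.hvA
  have hstabS : ∀ (χ : Γ → k) (v₀ : W), v₀ ≠ 0 → IsWt H Q χ v₀ → v ∈ stab Q χ →
      ⁅T, zpowers v⁆ ≤ stab Q χ := by
    intro χ v₀ hv₀ hχ hvχ
    rw [commutator_le]
    intro t ht g hg
    have hgs : g ∈ stab Q χ := (zpowers_le.2 hvχ) hg
    have h1 : t * g * t⁻¹ ∈ stab Q χ := by
      have h2 := horb χ v₀ hv₀ hχ hvχ t⁻¹ (inv_mem ht)
      have h3 : g ∈ stab Q (tw t⁻¹ χ) := (zpowers_le.2 h2) hg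
      rw [mem_stab_tw (inv_mem (hTQ ht)), inv_inv] at h3
      exact h3
    rw [commutatorElement_def]
    exact mul_mem h1 (inv_mem hgs)
  have hQD := FpfPQ2.le_of_family (Q₀ := Q₀) hPQ.haA hPQ.hvA hPQ.hAgen hPQ.hva hPQ.hgen hAQ hAT hTQ
    hcAQ hcAT hcTQ hQs hTs hfixT hfixQ hCT
    (by rw [hD]; exact bot_le)
    (fun x hx => hx.1)
    (by
      rw [le_normalizer_iff]
      intro t ht x hx
      refine ⟨(le_normalizer_iff.1 hTQ) t ht x hx.1, fun χ v₀ hv₀ hχ hv => ?_⟩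
      have h1 := hx.2 (tw t⁻¹ χ) (H t⁻¹ v₀) (ne_zero_of_H hv₀ _)
        (isWt_tw H hχ (inv_mem (hTQ ht))) (horb χ v₀ hv₀ hχ hv t⁻¹ (inv_mem ht))
      rw [tw_apply, inv_inv] at h1
      exact h1)
    (by
      have h0 : zpowers v ≤ normalizer (Q₀ : Set Γ) := by
        rw [le_normalizer_iff]
        intro g hg x hx
        have hgQ : g ∈ normalizer (Q : Set Γ) := (zpowers_le.2 hvQ) hg
        refine ⟨(mem_normalizer_iff.1 hgQ x).1 hx.1, fun χ v₀ hv₀ hχ hv => ?_⟩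
        have h1 := ((zpowers_le.2 hv) (inv_mem hg)).2 x hx.1
        rw [inv_inv] at h1
        rw [h1]
        exact hx.2 χ v₀ hv₀ hχ hv
      exact h0 (mem_zpowers v))
    (by
      intro x hx
      have hx' := (mem_normalizer_iff.1 hvQ x).1 hx
      refine ⟨mul_mem hx' (inv_mem hx), fun χ v₀ hv₀ hχ hv => ?_⟩
      have h1 := (inv_mem hv).2 x hx
      rw [inv_inv] at h1
      rw [isWt_mul hχ hv₀ hx' (inv_mem hx), h1]
      exact isWt_inv hχ hv₀ hx)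
    (by
      intro s hs x hx
      have hsT : s ∈ T := (le_normalizer_iff_commutator_le_left.mp
        (zpowers_le.2 (hAT hPQ.hvA))) hs
      have hx' := (le_normalizer_iff.1 hTQ) s hsT x hx
      refine ⟨mul_mem (inv_mem hx) hx', fun χ v₀ hv₀ hχ hv => ?_⟩
      have h1 := (inv_mem (hstabS χ v₀ hv₀ hχ hv hs)).2 x hx
      rw [inv_inv] at h1
      rw [isWt_mul hχ hv₀ (inv_mem hx) hx', h1, mul_comm]
      exact isWt_inv hχ hv₀ hx)
    (by
      intro y hy hyx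
      rw [hD, mem_bot]
      apply hinj y hy
      ext w
      refine eq_on_of_weights H ⊤ Q (fun _ _ _ _ => trivial) ?_ (Nat.card Q) hcardk hpowcard
        (H y) ?_ w trivial
      · intro x hx z hz u _
        rw [← Module.End.mul_apply, ← Module.End.mul_apply, ← map_mul, ← map_mul,
          (hab x hx z hz).eq]
      · intro v₀ _ χ hv₀ hχ
        rw [hχ y hy]
        by_cases hnt : ∃ z ∈ Q, χ z ≠ 1
        swap
        · push Not at hnt
          rw [hnt y hy, one_smul]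
        obtain ⟨x, hx, hxv⟩ := hexv χ v₀ hv₀ hχ hnt
        have hxA : x ∈ A := (zpowers_le.2 hPQ.haA) hx
        have hxi : x⁻¹ ∈ normalizer (Q : Set Γ) := inv_mem (hAQ hxA)
        have h1 := (hyx x hx).2 (tw x⁻¹ χ) (H x⁻¹ v₀) (ne_zero_of_H hv₀ _) (isWt_tw H hχ hxi) (by
          rw [mem_stab_tw hxi, inv_inv]
          exact hxv)
        rw [tw_apply] at h1
        have h2 : (x⁻¹)⁻¹ * (x⁻¹ * y * x) * x⁻¹ = y := by group
        rw [h2] at h1
        rw [h1, one_smul])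
  apply hQne
  rw [eq_bot_iff, ← hD]
  exact hQD

end Cases

end Cfsg.Agent.Lib.FpfPQ3
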