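import Cfsg.Agent.Lib.TateApps
import Cfsg.Agent.Lib.TransferApps
import Cfsg.Agent.Lib.FratFit
import Cfsg.Agent.Lib.Layer
import Cfsg.Agent.Lib.Cores
import Cfsg.Agent.Lib.MinNormal
import Cfsg.Agent.Lib.H70Frattini
import Cfsg.Agent.Lib.HallComplement

/-!
Two-generated Sylow subgroups: tools for S4172.
-/

set_option autoImplicit false

namespace Cfsg.Agent.Lib.FrCore

open Subgroup Cfsg Cfsg.Agent.Lib

/-- Tate's criterion for a subgroup normalised by the Sylow subgroup. -/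
theorem tate_norm {G : Type*} [Group G] [Finite G] {p : ℕ} [Fact p.Prime] (P : Sylow p G) (X : Subgroup G)
    (hX : (P : Subgroup G) ≤ normalizer (X : Set G))
    (h : X ⊓ (P : Subgroup G) ≤ (frattini P).map (P : Subgroup G).subtype) : HasNormalPComplement p ↥X := by
  set H := normalizer (X : Set G) with hH
  have hXH : X ≤ H := le_normalizer
  set P' : Sylow p ↥H := P.subtype hX with hP'
  have : (X.subgroupOf H).Normal := normal_in_normalizer
  -- the isomorphism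
  let e : ↥(P : Subgroup G) ≃* ↥(P' : Subgroup ↥H) := (subgroupOfEquivOfLe hX).symm
  have he : ∀ y : ↥(P : Subgroup G), ((e y : ↥H) : G) = (y : G) := fun y => rfl
  have hfr : (frattini ↥(P : Subgroup G)).map e.toMonoidHom = frattini ↥(P' : Subgroup ↥H) :=
    e.mapSubgroup.map_radical
  have h1 : (X.subgroupOf H) ⊓ (P' : Subgroup ↥H) ≤ (frattini P').map (P' : Subgroup ↥H).subtype := by
    rintro x ⟨hx1, hx2⟩
    have hxP : (x : G) ∈ (P : Subgroup G) := mem_subgroupOf.mp hx2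
    obtain ⟨y, hy, hyx⟩ := h ⟨mem_subgroupOf.mp hx1, hxP⟩
    refine ⟨e y, ?_, ?_⟩
    · have : e y ∈ (frattini ↥(P : Subgroup G)).map e.toMonoidHom := ⟨y, hy, rfl⟩
      rw [hfr] at this
      exact this
    · apply Subtype.ext
      exact hyx
  have h2 := TateApps.tate_frattini P' (X.subgroupOf H) h1
  exact PNilp.HasNormalPComplement.of_mulEquiv h2 (subgroupOfEquivOfLe hXH)

/-- In a `p`-group with Frattini subgroup of index `p²`, a normal subgroup outside the Frattini subgroup has cyclic quotient. -/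
theorem cyclic_of_not_le_frattini {Q : Type*} [Group Q] [Finite Q] {p : ℕ} [hp : Fact p.Prime]
    (hind : (frattini Q).index = p ^ 2) (M : Subgroup Q) [M.Normal] (hM : ¬ M ≤ frattini Q) :
    ∃ g : Q, M ⊔ zpowers g = ⊤ := by
  have hne : M ⊔ frattini Q ≠ frattini Q := fun h => hM (by rw [← h]; exact le_sup_left)
  by_cases htop : M ⊔ frattini Q = ⊤
  · exact ⟨1, by rw [frattini_nongenerating htop]; simp⟩
  · -- index p
    have hlt : frattini Q < M ⊔ frattini Q := lt_of_le_of_ne le_sup_right (Ne.symm hne)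
    obtain ⟨g, hg⟩ : ∃ g : Q, g ∉ M ⊔ frattini Q := by
      by_contra hcon
      push Not at hcon
      exact htop (eq_top_iff.mpr fun x _ => hcon x)
    have h1 : (M ⊔ frattini Q).index ∣ p ^ 2 := by
      rw [← hind]
      exact index_dvd_of_le hlt.le
    have h2 : (M ⊔ frattini Q).index ≠ 1 := fun h => htop (index_eq_one.mp h)
    have h3 : (M ⊔ frattini Q).index ≠ p ^ 2 := by
      intro h
      rw [← hind] at h
      have h4 := relIndex_mul_index hlt.le
      rw [h] at h4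
      have h5 : (frattini Q).relIndex (M ⊔ frattini Q) = 1 := by
        have h6 : (frattini Q).index ≠ 0 := index_ne_zero_of_finite
        exact Nat.eq_of_mul_eq_mul_right (Nat.pos_of_ne_zero h6) (by rw [h4, one_mul])
      rw [relIndex_eq_one] at h5
      exact hlt.not_ge h5
    have h4 : (M ⊔ frattini Q).index = p := by
      obtain ⟨k, hk, hk2⟩ := (Nat.dvd_prime_pow hp.out).mp h1
      interval_cases k
      · simp at hk2; exact absurd (index_eq_one.mpr hk2) h2
      · simpa using hk2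
      · exact absurd hk2 h3
    have h5 : IsCoatom (M ⊔ frattini Q) := TateApps.isCoatom_of_index_prime hp.out _ h4
    have h6 : M ⊔ frattini Q ⊔ zpowers g = ⊤ := by
      apply h5.2
      refine lt_of_le_of_ne le_sup_left (fun h => hg ?_)
      rw [h]
      exact mem_sup_right (mem_zpowers g)
    refine ⟨g, frattini_nongenerating ?_⟩
    rw [← h6, sup_right_comm]

theorem commutator_le_of_sup_zpowers {Q : Type*} [Group Q] (M : Subgroup Q) [M.Normal] (g : Q)
    (h : M ⊔ zpowers g = ⊤) : commutator Q ≤ M := by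
  rw [← Subgroup.Normal.quotient_commutative_iff_commutator_le]
  have hc : IsCyclic (Q ⧸ M) := by
    refine ⟨⟨QuotientGroup.mk' M g, fun x => ?_⟩⟩
    obtain ⟨y, rfl⟩ := QuotientGroup.mk'_surjective M x
    have hy : y ∈ M ⊔ zpowers g := by rw [h]; trivial
    obtain ⟨m, hm, z, hz, rfl⟩ := mem_sup_of_normal_left.mp hy
    have h1 : QuotientGroup.mk' M m = 1 := (QuotientGroup.eq_one_iff m).mpr hm
    rw [map_mul, h1, one_mul]
    obtain ⟨k, rfl⟩ := hz
    exact ⟨k, by simp⟩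
  exact ⟨⟨fun a b => (IsCyclic.commGroup (α := Q ⧸ M)).mul_comm a b⟩⟩

/-- The main dichotomy: an `S`-invariant subgroup without normal `p`-complement contains the derived group of `S`
and together with one element generates `S`. -/
theorem main_dichotomy {G : Type*} [Group G] [Finite G] {p : ℕ} [hp : Fact p.Prime] (P : Sylow p G)
    (hind : (frattini ↥(P : Subgroup G)).index = p ^ 2) (X : Subgroup G)
    (hX : (P : Subgroup G) ≤ normalizer (X : Set G))
    (hnp : ¬ X ⊓ (P : Subgroup G) ≤ (frattini ↥(P : Subgroup G)).map (P : Subgroup G).subtype) :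
    ⁅(P : Subgroup G), (P : Subgroup G)⁆ ≤ X ∧
      ∃ g ∈ (P : Subgroup G), (P : Subgroup G) = (X ⊓ (P : Subgroup G)) ⊔ zpowers g := by
  set M : Subgroup ↥(P : Subgroup G) := X.subgroupOf (P : Subgroup G) with hM
  have hMn : M.Normal := by
    refine ⟨fun n hn g => ?_⟩
    rw [hM, mem_subgroupOf] at hn ⊢
    have h1 := (mem_normalizer_iff.mp (hX g.2) (n : G)).mp hn
    simpa using h1
  have hMle : ¬ M ≤ frattini ↥(P : Subgroup G) := by
    intro h
    apply hnp
    rintro x ⟨hx1, hx2⟩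
    exact ⟨⟨x, hx2⟩, h (mem_subgroupOf.mpr hx1), rfl⟩
  obtain ⟨g, hg⟩ := cyclic_of_not_le_frattini hind M hMle
  have hcomm := commutator_le_of_sup_zpowers M g hg
  refine ⟨?_, g, g.2, ?_⟩
  · rw [← map_subtype_commutator, map_le_iff_le_comap]
    exact hcomm
  · apply le_antisymm
    · intro x hx
      have h1 : (⟨x, hx⟩ : ↥(P : Subgroup G)) ∈ M ⊔ zpowers g := by rw [hg]; trivial
      obtain ⟨m, hm, z, hz, h2⟩ := mem_sup_of_normal_left.mp h1
      have h3 : x = (m : G) * (z : G) := by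
        have := congrArg Subtype.val h2
        simpa using this.symm
      rw [h3]
      refine mul_mem (mem_sup_left ⟨mem_subgroupOf.mp hm, m.2⟩) (mem_sup_right ?_)
      obtain ⟨k, rfl⟩ := hz
      exact ⟨k, by simp⟩
    · refine sup_le inf_le_right ?_
      rw [zpowers_le]
      exact g.2

theorem isPGroup_of_npc {G : Type*} [Group G] [Finite G] {p : ℕ} [hp : Fact p.Prime] (h : HasNormalPComplement p G)
    (hc : pPrimeCore p G = ⊥) : IsPGroup p G := by
  obtain ⟨N, hN, h1, k, hk⟩ := PNilp.hasNormalPComplement_iff.mp h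
  have h2 : N ≤ pPrimeCore p G :=
    Cfsg.Agent.Lib.Cores.le_pPrimeCore hN (Nat.Coprime.symm ((Nat.Prime.coprime_iff_not_dvd hp.out).mpr h1))
  rw [hc, le_bot_iff] at h2
  rw [h2, index_bot] at hk
  exact IsPGroup.of_card hk

/-- A normal subgroup with a normal `p`-complement is a `p`-group when `O_{p'}(G) = 1`. -/
theorem isPGroup_of_normal_npc {G : Type*} [Group G] [Finite G] {p : ℕ} [hp : Fact p.Prime]
    (hcore : pPrimeCore p G = ⊥) (N : Subgroup G) [hN : N.Normal] (h1 : HasNormalPComplement p ↥N) :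
    IsPGroup p ↥N := by
  have h2 : (pPrimeCore p ↥N).map N.subtype ≤ pPrimeCore p G :=
    Layer.map_pPrimeCore_le_of_subnormal p hN.isSubnormal
  rw [hcore, le_bot_iff, map_eq_bot_iff_of_injective _ N.subtype_injective] at h2
  exact isPGroup_of_npc h1 h2

/-- A nontrivial normal subgroup has no normal `p`-complement, when `O_{p'}(G) = 1` and the Frattini subgroup of
the Sylow subgroup is core-free, unless it meets `S` outside the Frattini subgroup. -/
theorem not_le_frattini_of_normal {G : Type*} [Group G] [Finite G] {p : ℕ} [hp : Fact p.Prime] (P : Sylow p G)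
    (hcore : pPrimeCore p G = ⊥)
    (hfrat : ((frattini ↥(P : Subgroup G)).map (P : Subgroup G).subtype).normalCore = ⊥)
    (N : Subgroup G) [hN : N.Normal] (hne : N ≠ ⊥) :
    ¬ N ⊓ (P : Subgroup G) ≤ (frattini ↥(P : Subgroup G)).map (P : Subgroup G).subtype := by
  intro h
  have h1 : HasNormalPComplement p ↥N := TateApps.tate_frattini P N h
  have h3 : IsPGroup p ↥N := isPGroup_of_normal_npc hcore N h1
  have h4 : N ≤ (P : Subgroup G) := h3.le_sylow_of_normal P
  apply hne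
  rw [← le_bot_iff, ← hfrat]
  intro x hx
  have h5 : N ≤ ((frattini ↥(P : Subgroup G)).map (P : Subgroup G).subtype).normalCore := by
    rw [Subgroup.normal_le_normalCore]
    rwa [inf_eq_left.mpr h4] at h
  exact h5 hx

/-- Gaschütz-type averaging: inside an elementary abelian normal subgroup `F`, a normal subgroup `N` of `G` with a
complement normalised by a Sylow `p`-subgroup has a complement normal in `G`. -/
theorem exists_normal_compl {G : Type*} [Group G] [Finite G] {p : ℕ} (hp : p.Prime) (F : Subgroup G) [F.Normal]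
    (hcomm : ∀ x ∈ F, ∀ y ∈ F, x * y = y * x) (hexp : ∀ x ∈ F, x ^ p = 1) (N Z S : Subgroup G) [N.Normal] (hNF : N ≤ F)
    (hZF : Z ≤ F) (hNZ : N ⊓ Z = ⊥) (hsup : F ≤ N ⊔ Z) (hS : ¬ p ∣ S.index)
    (hSZ : ∀ s ∈ S, ∀ z ∈ Z, s⁻¹ * z * s ∈ Z) :
    ∃ C : Subgroup G, C ≤ F ∧ C.Normal ∧ C ⊓ N = ⊥ ∧ F ≤ C ⊔ N := by
  classical
  -- the projection to `Z` along `N`
  have hex : ∀ f : G, f ∈ F → ∃ z ∈ Z, f * z⁻¹ ∈ N := by
    intro f hf
    obtain ⟨n, hn, z, hz, rfl⟩ := mem_sup_of_normal_left.mp (hsup hf)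
    exact ⟨z, hz, by simpa using hn⟩
  have huniq : ∀ f z z' : G, z ∈ Z → z' ∈ Z → f * z⁻¹ ∈ N → f * z'⁻¹ ∈ N → z = z' := by
    intro f z z' hz hz' h1 h2
    have h3 : z * z'⁻¹ ∈ N ⊓ Z := by
      refine ⟨?_, Z.mul_mem hz (Z.inv_mem hz')⟩
      have : z * z'⁻¹ = (f * z⁻¹)⁻¹ * (f * z'⁻¹) := by group
      rw [this]
      exact N.mul_mem (N.inv_mem h1) h2
    rw [hNZ, mem_bot] at h3
    exact mul_inv_eq_one.mp h3
  choose! r hrZ hrN using hex
  have hr_mul : ∀ a ∈ F, ∀ b ∈ F, r (a * b) = r a * r b := by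
    intro a ha b hb
    apply huniq (a * b) _ _ (hrZ _ (mul_mem ha hb)) (mul_mem (hrZ a ha) (hrZ b hb)) (hrN _ (mul_mem ha hb))
    have h1 : a * b * (r a * r b)⁻¹ = (a * (b * (r b)⁻¹) * a⁻¹) * (a * (r a)⁻¹) := by
      group
    rw [h1]
    exact mul_mem (‹N.Normal›.conj_mem _ (hrN b hb) a) (hrN a ha)
  have hr_of_N : ∀ a ∈ N, r a = 1 := by
    intro a ha
    apply huniq a _ _ (hrZ _ (hNF ha)) (one_mem Z) (hrN _ (hNF ha))
    simpa using ha
  -- conjugation by S
  have hr_conj : ∀ s ∈ S, ∀ a ∈ F, r (s⁻¹ * a * s) = s⁻¹ * r a * s := by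
    intro s hs a ha
    have hF : s⁻¹ * a * s ∈ F := by
      have := ‹F.Normal›.conj_mem a ha s⁻¹
      simpa using this
    apply huniq _ _ _ (hrZ _ hF) (hSZ s hs _ (hrZ a ha)) (hrN _ hF)
    have h1 : s⁻¹ * a * s * (s⁻¹ * r a * s)⁻¹ = s⁻¹ * (a * (r a)⁻¹) * s := by group
    rw [h1]
    have := ‹N.Normal›.conj_mem _ (hrN a ha) s⁻¹
    simpa using this
  letI : CommGroup ↥F := { (inferInstance : Group ↥F) with
    mul_comm := fun a b => Subtype.ext (hcomm a a.2 b b.2) }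
  haveI : Fintype (G ⧸ S) := Fintype.ofFinite _
  have hconjF : ∀ (t : G) (a : ↥F), t⁻¹ * (a : G) * t ∈ F := by
    intro t a
    have := ‹F.Normal›.conj_mem _ a.2 t⁻¹
    simpa using this
  have hconjF' : ∀ (t : G) (a : ↥F), t * (a : G) * t⁻¹ ∈ F := fun t a => ‹F.Normal›.conj_mem _ a.2 t
  -- the summand
  let φ : G → ↥F → ↥F := fun t a =>
    ⟨t * r (t⁻¹ * (a : G) * t) * t⁻¹, hconjF' t ⟨_, hZF (hrZ _ (hconjF t a))⟩⟩
  have hφ_mul : ∀ t a b, φ t (a * b) = φ t a * φ t b := by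
    intro t a b
    apply Subtype.ext
    show t * r (t⁻¹ * ((a : G) * (b : G)) * t) * t⁻¹ = (t * r (t⁻¹ * (a : G) * t) * t⁻¹) * (t * r (t⁻¹ * (b : G) * t) * t⁻¹)
    have h1 : t⁻¹ * ((a : G) * (b : G)) * t = (t⁻¹ * (a : G) * t) * (t⁻¹ * (b : G) * t) := by group
    rw [h1, hr_mul _ (hconjF t a) _ (hconjF t b)]
    group
  have hφ_S : ∀ t a, ∀ s ∈ S, φ (t * s) a = φ t a := by
    intro t a s hs
    apply Subtype.ext
    show (t * s) * r ((t * s)⁻¹ * (a : G) * (t * s)) * (t * s)⁻¹ = t * r (t⁻¹ * (a : G) * t) * t⁻¹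
    have h1 : (t * s)⁻¹ * (a : G) * (t * s) = s⁻¹ * (t⁻¹ * (a : G) * t) * s := by group
    rw [h1, hr_conj s hs _ (hconjF t a)]
    group
  have hφ_N : ∀ t (a : ↥F), (a : G) ∈ N → φ t a = 1 := by
    intro t a ha
    apply Subtype.ext
    show t * r (t⁻¹ * (a : G) * t) * t⁻¹ = 1
    have h1 : t⁻¹ * (a : G) * t ∈ N := by
      have := ‹N.Normal›.conj_mem _ ha t⁻¹
      simpa using this
    rw [hr_of_N _ h1]
    group
  have hφ_mod : ∀ t (a : ↥F), (a : G) * ((φ t a : ↥F) : G)⁻¹ ∈ N := by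
    intro t a
    show (a : G) * (t * r (t⁻¹ * (a : G) * t) * t⁻¹)⁻¹ ∈ N
    have h1 : (a : G) * (t * r (t⁻¹ * (a : G) * t) * t⁻¹)⁻¹ =
        t * ((t⁻¹ * (a : G) * t) * (r (t⁻¹ * (a : G) * t))⁻¹) * t⁻¹ := by group
    rw [h1]
    exact ‹N.Normal›.conj_mem _ (hrN _ (hconjF t a)) t
  have hφ_conj : ∀ (g t : G) (a : ↥F), φ t ⟨g * (a : G) * g⁻¹, hconjF' g a⟩ =
      ⟨g * ((φ (g⁻¹ * t) a : ↥F) : G) * g⁻¹, hconjF' g _⟩ := by
    intro g t a
    apply Subtype.ext
    show t * r (t⁻¹ * (g * (a : G) * g⁻¹) * t) * t⁻¹ =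
      g * ((g⁻¹ * t) * r ((g⁻¹ * t)⁻¹ * (a : G) * (g⁻¹ * t)) * (g⁻¹ * t)⁻¹) * g⁻¹
    have h1 : t⁻¹ * (g * (a : G) * g⁻¹) * t = (g⁻¹ * t)⁻¹ * (a : G) * (g⁻¹ * t) := by group
    rw [h1]
    group
  -- the class function
  let ψ : G ⧸ S → ↥F → ↥F := fun q a => φ q.out a
  have hψ : ∀ (t : G) (a : ↥F), ψ (t : G ⧸ S) a = φ t a := by
    intro t a
    obtain ⟨s, hs⟩ := QuotientGroup.mk_out_eq_mul S t
    show φ ((t : G ⧸ S)).out a = φ t a
    rw [hs]
    exact hφ_S t a s s.2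
  let w : ↥F →* ↥F := MonoidHom.mk' (fun a => ∏ q : G ⧸ S, ψ q a) (by
    intro a b
    rw [← Finset.prod_mul_distrib]
    exact Finset.prod_congr rfl fun q _ => hφ_mul _ a b)
  have hw : ∀ a, w a = ∏ q : G ⧸ S, ψ q a := fun a => rfl
  have hwN : ∀ a : ↥F, (a : G) ∈ N → w a = 1 := by
    intro a ha
    rw [hw]
    exact Finset.prod_eq_one fun q _ => hφ_N _ a ha
  -- equivariance
  have hwconj : ∀ (g : G) (a : ↥F), (w ⟨g * (a : G) * g⁻¹, hconjF' g a⟩ : G) = g * (w a : G) * g⁻¹ := by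
    intro g a
    let c : ↥F →* ↥F := (MulAut.conjNormal g : MulAut ↥F).toMonoidHom
    have hc : ∀ x : ↥F, ((c x : ↥F) : G) = g * (x : G) * g⁻¹ := fun x => MulAut.conjNormal_apply g x
    have h1 : w ⟨g * (a : G) * g⁻¹, hconjF' g a⟩ = c (w a) := by
      rw [hw, hw, map_prod]
      apply Fintype.prod_bijective (fun q : G ⧸ S => g⁻¹ • q) (MulAction.bijective g⁻¹)
      intro q
      obtain ⟨t, rfl⟩ := QuotientGroup.mk_surjective q
      rw [hψ, hφ_conj]
      have h2 : g⁻¹ • (t : G ⧸ S) = ((g⁻¹ * t : G) : G ⧸ S) := rfl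
      rw [h2, hψ]
      apply Subtype.ext
      rw [hc]
    rw [h1, hc]
  have hwmod : ∀ a : ↥F, (a ^ S.index * (w a)⁻¹ : ↥F) ∈ N.subgroupOf F := by
    intro a
    have h1 : a ^ S.index = ∏ q : G ⧸ S, a := by
      rw [Finset.prod_const, Finset.card_univ, ← Nat.card_eq_fintype_card]
      rfl
    rw [h1, hw, ← Finset.prod_inv_distrib, ← Finset.prod_mul_distrib]
    apply Subgroup.prod_mem
    intro q _
    rw [mem_subgroupOf]
    exact hφ_mod _ a
  -- the complement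
  refine ⟨w.range.map F.subtype, map_subtype_le _, ?_, ?_, ?_⟩
  · refine ⟨?_⟩
    rintro _ ⟨_, ⟨a, rfl⟩, rfl⟩ g
    exact ⟨w ⟨g * (a : G) * g⁻¹, hconjF' g a⟩, ⟨_, rfl⟩, hwconj g a⟩
  · rw [eq_bot_iff]
    rintro _ ⟨⟨_, ⟨a, rfl⟩, rfl⟩, ha2⟩
    have ha2' : ((w a : ↥F) : G) ∈ N := ha2
    -- `a ^ index ∈ N`
    have h1 : a ^ S.index ∈ N.subgroupOf F := by
      have h2 := mul_mem (hwmod a) (mem_subgroupOf.mpr ha2' : w a ∈ N.subgroupOf F)
      rwa [inv_mul_cancel_right] at h2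
    have h3 : a ^ p = 1 := Subtype.ext (by simpa using hexp a a.2)
    have h4 : a ∈ N.subgroupOf F := by
      have h5 : Nat.Coprime S.index p := (Nat.Coprime.symm ((Nat.Prime.coprime_iff_not_dvd hp).mpr hS))
      have h6 : a ^ p ∈ N.subgroupOf F := by rw [h3]; exact one_mem _
      have h7 : a ^ (Nat.gcd S.index p) ∈ N.subgroupOf F := by
        have h8 : (a ^ (Nat.gcd S.index p) : ↥F) = (a ^ S.index) ^ (S.index.gcdA p) * (a ^ p) ^ (S.index.gcdB p) := by
          rw [← zpow_natCast, ← zpow_natCast, ← zpow_natCast, ← zpow_mul, ← zpow_mul, ← zpow_add,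
            Nat.gcd_eq_gcd_ab]
        rw [h8]
        exact mul_mem (zpow_mem h1 _) (zpow_mem h6 _)
      rwa [h5.gcd_eq_one, pow_one] at h7
    rw [mem_bot]
    show ((w a : ↥F) : G) = 1
    rw [hwN a (mem_subgroupOf.mp h4)]
    rfl
  · intro x hx
    -- `x ≡ w(x^m)`
    have h5 : Nat.Coprime S.index p := (Nat.Coprime.symm ((Nat.Prime.coprime_iff_not_dvd hp).mpr hS))
    set a : ↥F := ⟨x, hx⟩ with ha
    have h3 : a ^ p = 1 := Subtype.ext (by simpa using hexp a a.2)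
    set b : ↥F := a ^ (S.index.gcdA p) with hb
    have h8 : b ^ S.index = a := by
      have h9 : (a ^ ((Nat.gcd S.index p : ℕ) : ℤ) : ↥F) = (a ^ (S.index.gcdA p)) ^ (S.index : ℤ) * (a ^ p) ^ (S.index.gcdB p) := by
        rw [← zpow_natCast a p, ← zpow_mul, ← zpow_mul, ← zpow_add, Nat.gcd_eq_gcd_ab]
        congr 1
        ring
      rw [h5.gcd_eq_one, h3, one_zpow, mul_one, zpow_natCast] at h9
      rw [hb, ← zpow_natCast (a ^ S.index.gcdA p), ← h9]
      simp
    have h10 := hwmod b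
    rw [h8] at h10
    have h11 : (a : G) * ((w b : ↥F) : G)⁻¹ ∈ N := mem_subgroupOf.mp h10
    have h12 : x = ((a : G) * ((w b : ↥F) : G)⁻¹) * ((w b : ↥F) : G) := by
      rw [inv_mul_cancel_right]
    rw [h12]
    exact mul_mem (mem_sup_right h11) (mem_sup_left ⟨w b, ⟨b, rfl⟩, rfl⟩)

end Cfsg.Agent.Lib.FrCore
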