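import Cfsg.Agent.Lib.H31PStab2
import Cfsg.Agent.Lib.OmegaFix
import Cfsg.Agent.Lib.PGroupOdd
import Cfsg.Agent.Lib.Cores
import Cfsg.Agent.Lib.H32PSolv
import Cfsg.Agent.Lib.PAct

/-!
A Frobenius group `Q ⋊ ⟨b⟩` acting on a group of class two (helper48).
-/

set_option autoImplicit false
set_option linter.unusedSectionVars false

namespace Cfsg.Agent.Lib.FrobForm

open Subgroup Cfsg.Agent.Lib.QuadSection
open scoped commutatorElement

universe u

section Lin

variable {H : Type*} [Group H] {F : Type*} [Field F] {W : Type*} [AddCommGroup W] [Module F W]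

/-- If `C` acts fixed-point-freely on `Q` and `Q` has no fixed vector then `∑_{c ∈ C} c ≠ 0`. -/
theorem sum_ne_zero (Q C : Subgroup H) [Finite Q] [Fintype C]
    (hCQ : C ≤ normalizer (Q : Set H)) (hfpf : ∀ c ∈ C, c ≠ 1 → ∀ x ∈ Q, x * c = c * x → x = 1)
    (ρ : H →* Module.End F W) (hQ : (Nat.card Q : F) ≠ 0)
    (hfix : ∀ w : W, (∀ x ∈ Q, ρ x w = w) → w = 0) [Nontrivial W] :
    ∑ c : C, ρ (c : H) ≠ 0 := by
  classical
  have : Fintype Q := Fintype.ofFinite _
  intro h0
  -- the sum over `Q` is zero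
  have hσ : ∑ x : Q, ρ (x : H) = 0 := by
    ext w
    apply hfix
    intro y hy
    rw [LinearMap.sum_apply, map_sum]
    have h1 : ∀ x : Q, ρ y (ρ (x : H) w) = ρ ((⟨y, hy⟩ * x : Q) : H) w := by
      intro x
      rw [Subgroup.coe_mul, map_mul]; rfl
    rw [Finset.sum_congr rfl (fun x _ => h1 x)]
    exact Equiv.sum_comp (Equiv.mulLeft (⟨y, hy⟩ : Q)) (fun x : Q => ρ (x : H) w)
  -- conjugates
  have h1 : ∀ x : Q, ∑ c : C, ρ ((x : H) * c * (x : H)⁻¹) = 0 := by
    intro x
    have h2 : ∀ c : C, ρ ((x : H) * c * (x : H)⁻¹) = ρ (x : H) * ρ (c : H) * ρ (x : H)⁻¹ := by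
      intro c; rw [map_mul, map_mul]
    rw [Finset.sum_congr rfl (fun c _ => h2 c), ← Finset.sum_mul, ← Finset.mul_sum, h0]
    simp
  have h2 : ∑ x : Q, ∑ c : C, ρ ((x : H) * c * (x : H)⁻¹) = 0 :=
    Finset.sum_eq_zero (fun x _ => h1 x)
  rw [Finset.sum_comm] at h2
  -- terms with `c ≠ 1`
  have h3 : ∀ c : C, c ≠ 1 → ∑ x : Q, ρ ((x : H) * c * (x : H)⁻¹) = 0 := by
    intro c hc
    have hc' : (c : H) ≠ 1 := fun h => hc (Subtype.ext h)
    have hmem : ∀ x : Q, (c : H) * (x : H)⁻¹ * (c : H)⁻¹ ∈ Q := fun x =>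
      (mem_normalizer_iff.mp (hCQ c.2) _).mp (inv_mem x.2)
    let φ : Q → Q := fun x => x * ⟨(c : H) * (x : H)⁻¹ * (c : H)⁻¹, hmem x⟩
    have hφ : Function.Injective φ := by
      intro x y hxy
      have h4 : (x : H) * ((c : H) * (x : H)⁻¹ * (c : H)⁻¹) = y * ((c : H) * (y : H)⁻¹ * (c : H)⁻¹) :=
        congrArg Subtype.val hxy
      have h5 : (y : H)⁻¹ * x = 1 := by
        apply hfpf c c.2 hc' _ (mul_mem (inv_mem y.2) x.2)
        have h6 : (y : H)⁻¹ * x * c = (y : H)⁻¹ * (x * (c * (x : H)⁻¹ * (c : H)⁻¹)) * c * x := by group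
        rw [h6, h4]; group
      have h7 : (x : H) = y := by
        have := congrArg (fun z => (y : H) * z) h5
        simpa using this
      exact Subtype.ext h7
    have hφb : Function.Bijective φ := (Finite.injective_iff_bijective).mp hφ
    have h4 : ∀ x : Q, ρ ((x : H) * c * (x : H)⁻¹) = ρ ((φ x : Q) : H) * ρ (c : H) := by
      intro x
      rw [← map_mul]
      congr 1
      change (x : H) * c * (x : H)⁻¹ = (x * ((c : H) * (x : H)⁻¹ * (c : H)⁻¹)) * c
      group
    have h5 : ∑ x : Q, ρ ((φ x : Q) : H) = ∑ x : Q, ρ (x : H) :=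
      Equiv.sum_comp (Equiv.ofBijective φ hφb) (fun x : Q => ρ (x : H))
    rw [Finset.sum_congr rfl (fun x _ => h4 x), ← Finset.sum_mul, h5, hσ, zero_mul]
  rw [Finset.sum_eq_single (1 : C) (fun c _ hc => h3 c hc) (fun h => absurd (Finset.mem_univ _) h)] at h2
  have h5 : ∀ x : Q, ρ ((x : H) * ((1 : C) : H) * (x : H)⁻¹) = 1 := by
    intro x; simp
  rw [Finset.sum_congr rfl (fun x _ => h5 x), Finset.sum_const, Finset.card_univ, ← Nat.card_eq_fintype_card] at h2
  obtain ⟨w, hw⟩ := exists_ne (0 : W)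
  apply hw
  have h6 := LinearMap.congr_fun h2 w
  have h7 : (Nat.card Q : F) • w = 0 := by
    rw [Nat.cast_smul_eq_nsmul]
    simpa using h6
  exact (smul_eq_zero.mp h7).resolve_left hQ

end Lin

section Jordan

variable {p : ℕ} [hp : Fact p.Prime] {W : Type*} [AddCommGroup W] [Module (ZMod p) W] [Finite W]

theorem exists_of_not_mem_range (T : Module.End (ZMod p) W) (hT : Nat.card (LinearMap.ker T) ≤ p) {w : W}
    (hw : w ∉ LinearMap.range T) (v : W) : ∃ (n : ℕ) (u : W), v = n • w + T u := by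
  classical
  set R := LinearMap.range T with hR
  have h1 : Nat.card (W ⧸ R) = Nat.card (LinearMap.ker T) := by
    have h2 : Nat.card W = Nat.card (W ⧸ R) * Nat.card R := by
      rw [mul_comm]; exact Submodule.card_eq_card_quotient_mul_card R |>.trans (mul_comm _ _) |>.trans (by ring)
    have h3 : Nat.card W = Nat.card (W ⧸ LinearMap.ker T) * Nat.card (LinearMap.ker T) := by
      rw [mul_comm]; exact Submodule.card_eq_card_quotient_mul_card _ |>.trans (mul_comm _ _) |>.trans (by ring)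
    have h4 : Nat.card (W ⧸ LinearMap.ker T) = Nat.card R := Nat.card_congr (T.quotKerEquivRange).toEquiv
    rw [h4, mul_comm] at h3
    rw [h2] at h3
    exact Nat.eq_of_mul_eq_mul_right Nat.card_pos h3
  have : Finite (W ⧸ R) := Finite.of_surjective _ (Submodule.mkQ_surjective R)
  have hne : (Submodule.Quotient.mk w : W ⧸ R) ≠ 0 := by
    rw [Ne, Submodule.Quotient.mk_eq_zero]; exact hw
  let f : ZMod p → W ⧸ R := fun c => c • Submodule.Quotient.mk w
  have hf : Function.Injective f := by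
    intro c d hcd
    by_contra hcd'
    have h5 : (c - d) • (Submodule.Quotient.mk w : W ⧸ R) = 0 := by
      rw [sub_smul]; exact sub_eq_zero.mpr hcd
    exact hne ((smul_eq_zero.mp h5).resolve_left (sub_ne_zero.mpr hcd'))
  have hfb : Function.Bijective f := hf.bijective_of_nat_card_le (by rw [h1, Nat.card_zmod]; exact hT)
  obtain ⟨c, hc⟩ := hfb.2 (Submodule.Quotient.mk v)
  have h6 : v - c.val • w ∈ R := by
    rw [← Submodule.Quotient.mk_eq_zero, Submodule.Quotient.mk_sub, ← hc]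
    have h7 : (c.val • w : W) = c • w := by
      rw [← Nat.cast_smul_eq_nsmul (ZMod p), ZMod.natCast_val, ZMod.cast_id', id]
    rw [h7, Submodule.Quotient.mk_smul, sub_self]
  obtain ⟨u, hu⟩ := h6
  exact ⟨c.val, u, by rw [hu]; abel⟩

end Jordan

section Main

variable {G : Type u} [Group G] [Finite G] {p : ℕ} [hp : Fact p.Prime]

theorem main (hp2 : p ≠ 2) {Q X Y : Subgroup G} {b : G} (hb : b ^ p = 1) (hQ : (Nat.card Q).Coprime p)
    (hbQ : b ∈ normalizer (Q : Set G)) (hfpf : ∀ x ∈ Q, x * b = b * x → x = 1)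
    (hYX : Y < X) (hHX : Q ⊔ zpowers b ≤ normalizer (X : Set G)) (hHY : Q ⊔ zpowers b ≤ normalizer (Y : Set G))
    (hcomm : ∀ x ∈ X, ∀ y ∈ X, ⁅x, y⁆ ∈ Y) (hexp : ∀ x ∈ X, x ^ p = 1)
    (hirr : ∀ Z : Subgroup G, Y ≤ Z → Z ≤ X → Q ⊔ zpowers b ≤ normalizer (Z : Set G) → Z = Y ∨ Z = X)
    (hYQ : Y ≤ centralizer (Q : Set G)) (hYc : ∀ x ∈ X, ∀ y ∈ Y, x * y = y * x)
    (hk : ∃ k ∈ Q, ¬ ∀ x ∈ X, ⁅x, k⁆ ∈ Y)
    (hCX : ∀ x ∈ X, x * b = b * x → x ∈ Y)
    (hCY : Nat.card (Y ⊓ centralizer ({b} : Set G) : Subgroup G) ≤ p) : False := by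
  classical
  set H : Subgroup G := Q ⊔ zpowers b with hH
  have hQH : Q ≤ H := le_sup_left
  have hbH : b ∈ H := mem_sup_right (mem_zpowers b)
  have hbX : b ∈ normalizer (X : Set G) := hHX hbH
  have hbY : b ∈ normalizer (Y : Set G) := hHY hbH
  have hzQ : zpowers b ≤ normalizer (Q : Set G) := zpowers_le.mpr hbQ
  have hHQ : H ≤ normalizer (Q : Set G) := sup_le le_normalizer hzQ
  have hXY : X ≤ normalizer (Y : Set G) := by
    intro x hx
    rw [mem_normalizer_iff]
    intro y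
    constructor
    · intro hy
      have h1 : x * y * x⁻¹ = y := by rw [hYc x hx y hy]; group
      rw [h1]; exact hy
    · intro hy
      have h1 : x⁻¹ * (x * y * x⁻¹) * x = x * y * x⁻¹ := by
        have h2 := hYc x⁻¹ (inv_mem hx) _ hy
        rw [h2]; group
      have h2 : y = x * y * x⁻¹ := by rw [← h1]; group
      rw [h2]; exact hy
  obtain ⟨W, _, _, _, π, hπ, hker⟩ := exists_W (p := p) hYX.le hXY hcomm
    (fun x hx => by rw [hexp x hx]; exact one_mem _)
  have hkerH : ∀ (g : H) (x : X), π x = 1 → π (cj (hHX g.2) x) = 1 := by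
    intro g x hx
    rw [hker] at hx ⊢
    rw [cj_val]
    exact (mem_normalizer_iff.1 (hHY g.2) _).1 hx
  obtain ⟨ρ, hρ⟩ := exists_rep (p := p) hHX π hπ hkerH
  have hcj : ∀ (g : H) (x : X), π (cj (hHX g.2) x) = π x ↔ ⁅(x : G), (g : G)⁆ ∈ Y := by
    intro g x
    have h5 : ((x * (cj (hHX g.2) x)⁻¹ : X) : G) = ⁅(x : G), (g : G)⁆ := by
      rw [Subgroup.coe_mul, Subgroup.coe_inv, cj_val, commutatorElement_def]
      group
    rw [← h5, ← hker, map_mul, map_inv, mul_inv_eq_one]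
    exact eq_comm
  -- irreducibility of `W`
  have hW : ∀ S : Submodule (ZMod p) W, (∀ h : H, ∀ w ∈ S, ρ h w ∈ S) → S = ⊥ ∨ S = ⊤ := by
    intro S hS
    let S' : Subgroup X := (AddSubgroup.toSubgroup S.toAddSubgroup).comap π
    have hmem : ∀ x : X, x ∈ S' ↔ Multiplicative.toAdd (π x) ∈ S := fun x => Iff.rfl
    have hZ := hirr (S'.map X.subtype) (by
      intro y hy
      refine ⟨⟨y, hYX.le hy⟩, ?_, rfl⟩
      rw [SetLike.mem_coe, hmem, (hker ⟨y, hYX.le hy⟩).mpr hy]
      exact S.zero_mem) (map_subtype_le _) (by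
      rw [Subgroup.le_normalizer_iff]
      rintro h hh _ ⟨x, hx, rfl⟩
      refine ⟨cj (hHX hh) x, ?_, rfl⟩
      rw [SetLike.mem_coe, hmem, ← hρ ⟨h, hh⟩]
      exact hS _ _ hx)
    rcases hZ with hZ | hZ
    · left
      rw [eq_bot_iff]
      intro w hw
      obtain ⟨x, hx⟩ := hπ (Multiplicative.ofAdd w)
      have h1 : (x : G) ∈ S'.map X.subtype := ⟨x, by rw [SetLike.mem_coe, hmem, hx]; exact hw, rfl⟩
      rw [hZ] at h1
      have h2 := (hker x).mpr h1
      rw [hx] at h2
      exact h2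
    · right
      rw [eq_top_iff]
      intro w _
      obtain ⟨x, hx⟩ := hπ (Multiplicative.ofAdd w)
      have h1 : (x : G) ∈ S'.map X.subtype := by rw [hZ]; exact x.2
      obtain ⟨x', hx', h2⟩ := h1
      have h3 : x' = x := Subtype.ext h2
      rw [h3] at hx'
      have h4 := (hmem x).mp hx'
      rw [hx] at h4
      exact h4
  have hWnt : Nontrivial W := by
    obtain ⟨x, hx, hxY⟩ := SetLike.exists_of_lt hYX
    refine ⟨⟨Multiplicative.toAdd (π ⟨x, hx⟩), 0, ?_⟩⟩
    intro h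
    exact hxY ((hker ⟨x, hx⟩).mp h)
  -- no fixed points of `Q`
  have hfix : ∀ w : W, (∀ x ∈ Q.subgroupOf H, ρ x w = w) → w = 0 := by
    let S : Submodule (ZMod p) W :=
      { carrier := {w | ∀ x ∈ Q.subgroupOf H, ρ x w = w}
        add_mem' := fun {u v} hu hv x hx => by rw [map_add, hu x hx, hv x hx]
        zero_mem' := fun x hx => by rw [map_zero]
        smul_mem' := fun c w hw x hx => by rw [map_smul, hw x hx] }
    have hS := hW S (by
      intro h w hw x hx
      have h1 : (h⁻¹ * x * h : H) ∈ Q.subgroupOf H := by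
        rw [mem_subgroupOf] at hx ⊢
        have := (mem_normalizer_iff.mp (hHQ (inv_mem h.2)) _).mp hx
        simpa using this
      have h2 := hw _ h1
      have h3 : ρ x (ρ h w) = ρ h (ρ (h⁻¹ * x * h) w) := by
        have h4 : x * h = h * (h⁻¹ * x * h) := by group
        have h5 := congrArg (fun z => ρ z w) h4
        simp only [map_mul ρ x h, map_mul ρ h (h⁻¹ * x * h)] at h5
        exact h5
      rw [h3, h2])
    rcases hS with hS | hS
    · intro w hw
      have : w ∈ S := hw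
      rw [hS] at this
      exact (Submodule.mem_bot _).mp this
    · exfalso
      obtain ⟨k, hkQ, hk⟩ := hk
      apply hk
      intro x hx
      have h1 : Multiplicative.toAdd (π ⟨x, hx⟩) ∈ S := by rw [hS]; trivial
      have h2 := h1 ⟨k, hQH hkQ⟩ (by rw [mem_subgroupOf]; exact hkQ)
      rw [hρ] at h2
      exact (hcj ⟨k, hQH hkQ⟩ ⟨x, hx⟩).mp h2
  -- the norm of `b`
  let b' : H := ⟨b, hbH⟩
  have hb' : b' ^ p = 1 := Subtype.ext hb
  let C : Subgroup H := zpowers b'
  have hCfin : Fintype C := Fintype.ofFinite _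
  have hfpf' : ∀ c ∈ C, c ≠ 1 → ∀ x ∈ Q.subgroupOf H, x * c = c * x → x = 1 := by
    intro c hc hc1 x hx hxc
    obtain ⟨n, rfl⟩ := mem_powers_iff_mem_zpowers.mpr hc
    have hn : p.Coprime n := by
      rw [hp.out.coprime_iff_not_dvd]
      rintro ⟨m, rfl⟩
      exact hc1 (by change b' ^ (p * m) = 1; rw [pow_mul, hb', one_pow])
    have hn' : n.Coprime (orderOf b') :=
      Nat.Coprime.coprime_dvd_right (orderOf_dvd_of_pow_eq_one hb') hn.symm
    obtain ⟨m, hm⟩ := exists_pow_eq_self_of_coprime hn'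
    have h1 : Commute x ((b' ^ n) ^ m) := Commute.pow_right hxc m
    rw [hm] at h1
    have h2 := hfpf x hx (congrArg Subtype.val h1.eq)
    exact Subtype.ext h2
  have hCQ : C ≤ normalizer (Q.subgroupOf H : Set H) := by
    rw [zpowers_le]
    rw [mem_normalizer_iff]
    intro y
    exact mem_normalizer_iff.mp hbQ y
  have hcardQ : Nat.card (Q.subgroupOf H) = Nat.card Q := SubgroupTools.card_subgroupOf_of_le hQH
  set N : Module.End (ZMod p) W := ∑ c : C, ρ (c : H) with hNdef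
  have hN : N ≠ 0 := by
    apply sum_ne_zero (Q.subgroupOf H) C hCQ hfpf' ρ _ hfix
    rw [hcardQ, Ne, ZMod.natCast_eq_zero_iff]
    exact (hp.out.coprime_iff_not_dvd).mp hQ.symm
  obtain ⟨x, hx⟩ : ∃ x : X, N (Multiplicative.toAdd (π x)) ≠ 0 := by
    by_contra hcon
    push Not at hcon
    apply hN
    ext w
    obtain ⟨x, hx⟩ := hπ (Multiplicative.ofAdd w)
    have := hcon x
    rw [hx] at this
    exact this
  obtain ⟨z, hz⟩ := hπ (Multiplicative.ofAdd (N (Multiplicative.toAdd (π x))))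
  have hzY : (z : G) ∉ Y := by
    rw [← hker, hz]
    exact hx
  -- `b` fixes `N w`
  have hbN : ρ b' * N = N := by
    rw [hNdef, Finset.mul_sum]
    have h1 : ∀ c : C, ρ b' * ρ (c : H) = ρ (((⟨b', mem_zpowers b'⟩ : C) * c : C) : H) := by
      intro c; rw [← map_mul]; rfl
    rw [Finset.sum_congr rfl (fun c _ => h1 c)]
    exact Equiv.sum_comp (Equiv.mulLeft (⟨b', mem_zpowers b'⟩ : C)) (fun c : C => ρ (c : H))
  have hNb : N * ρ b' = N := by
    rw [hNdef, Finset.sum_mul]
    have h1 : ∀ c : C, ρ (c : H) * ρ b' = ρ ((c * (⟨b', mem_zpowers b'⟩ : C) : C) : H) := by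
      intro c; rw [← map_mul]; rfl
    rw [Finset.sum_congr rfl (fun c _ => h1 c)]
    exact Equiv.sum_comp (Equiv.mulRight (⟨b', mem_zpowers b'⟩ : C)) (fun c : C => ρ (c : H))
  -- the kernel of `b - 1`
  set T : Module.End (ZMod p) W := ρ b' - 1 with hT
  have hTker : ∀ x : X, Multiplicative.toAdd (π x) ∈ LinearMap.ker T ↔ ⁅(x : G), b⁆ ∈ Y := by
    intro x
    rw [LinearMap.mem_ker]
    have h1 : T (Multiplicative.toAdd (π x)) = ρ b' (Multiplicative.toAdd (π x)) - Multiplicative.toAdd (π x) := rfl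
    rw [h1, sub_eq_zero, hρ]
    exact hcj b' x
  have hTcard : Nat.card (LinearMap.ker T) ≤ p := by
    let L : Subgroup X := (AddSubgroup.toSubgroup (LinearMap.ker T).toAddSubgroup).comap π
    have hL : ∀ x : X, x ∈ L ↔ ⁅(x : G), b⁆ ∈ Y := fun x => hTker x
    have h1 : Nat.card L = Nat.card (LinearMap.ker T) * Nat.card Y := by
      have h2 := Cores.card_comap_of_surjective hπ (AddSubgroup.toSubgroup (LinearMap.ker T).toAddSubgroup)
      have h3 : π.ker = Y.subgroupOf X := by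
        ext x; rw [MonoidHom.mem_ker, hker, mem_subgroupOf]
      rw [h3, SubgroupTools.card_subgroupOf_of_le hYX.le] at h2
      rw [mul_comm] at h2
      exact h2
    let δ : L →* Y :=
      { toFun := fun x => ⟨⁅((x : X) : G), b⁆, (hL x).mp x.2⟩
        map_one' := Subtype.ext (by simp)
        map_mul' := by
          intro u v
          apply Subtype.ext
          have hv : ⁅((v : X) : G), b⁆ ∈ Y := (hL v).mp v.2
          have h3 := hYc _ (u : X).2 _ hv
          change ⁅((u : X) : G) * ((v : X) : G), b⁆ = ⁅((u : X) : G), b⁆ * ⁅((v : X) : G), b⁆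
          have hu : ⁅((u : X) : G), b⁆ ∈ Y := (hL u).mp u.2
          have h4 := hYc _ (hYX.le hu) _ hv
          calc ⁅((u : X) : G) * ((v : X) : G), b⁆
              = ((u : X) : G) * ⁅((v : X) : G), b⁆ * ((u : X) : G)⁻¹ * ⁅((u : X) : G), b⁆ := by
                simp only [commutatorElement_def]; group
            _ = ⁅((v : X) : G), b⁆ * ⁅((u : X) : G), b⁆ := by rw [h3]; group
            _ = _ := h4.symm }
    have h2 : Nat.card L = Nat.card δ.ker * Nat.card δ.range := by
      have h3 := Subgroup.card_mul_index δ.ker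
      rw [Subgroup.index_ker] at h3
      exact h3.symm
    have h3 : Nat.card δ.ker ≤ Nat.card (Y ⊓ centralizer ({b} : Set G) : Subgroup G) := by
      have h4 : ∀ u : δ.ker, ((u : L) : X) * b = b * (((u : L) : X) : G) := by
        intro u
        have h5 : ⁅(((u : L) : X) : G), b⁆ = 1 := congrArg Subtype.val u.2
        exact commutatorElement_eq_one_iff_mul_comm.mp h5
      let ι : δ.ker → (Y ⊓ centralizer ({b} : Set G) : Subgroup G) := fun u =>
        ⟨(((u : L) : X) : G), mem_inf.mpr ⟨hCX _ ((u : L) : X).2 (h4 u),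
          mem_centralizer_singleton_iff.mpr (h4 u)⟩⟩
      apply Nat.card_le_card_of_injective ι
      intro u v huv
      have h6 : (((u : L) : X) : G) = (((v : L) : X) : G) :=
        congrArg (fun t : ↥(Y ⊓ centralizer ({b} : Set G) : Subgroup G) => (t : G)) huv
      exact Subtype.ext (Subtype.ext (Subtype.ext h6))
    have h4 : Nat.card δ.range ≤ Nat.card Y := Nat.card_le_card_of_injective _ δ.range.subtype_injective
    have h5 : Nat.card (LinearMap.ker T) * Nat.card Y ≤ p * Nat.card Y := by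
      rw [← h1, h2]
      exact Nat.mul_le_mul (h3.trans hCY) h4
    exact Nat.le_of_mul_le_mul_right h5 Nat.card_pos
  have hspan : ∀ v : X, ∃ (n : ℕ) (w : X), π v = π (x ^ n * (cj hbX w * w⁻¹)) := by
    intro v
    have hxT : Multiplicative.toAdd (π x) ∉ LinearMap.range T := by
      rintro ⟨u, hu⟩
      apply hx
      rw [← hu]
      have : N (T u) = (N * ρ b' - N) u := by
        rw [hT]; simp
      rw [this, hNb, sub_self]; rfl
    obtain ⟨n, u, hu⟩ := exists_of_not_mem_range T hTcard hxT (Multiplicative.toAdd (π v))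
    obtain ⟨w, hw⟩ := hπ (Multiplicative.ofAdd u)
    refine ⟨n, w, ?_⟩
    have h1 : T u = Multiplicative.toAdd (π (cj hbX w * w⁻¹)) := by
      have h2 : T u = ρ b' u - u := rfl
      have h3 : u = Multiplicative.toAdd (π w) := by rw [hw]; rfl
      rw [h2, h3, hρ, map_mul, map_inv, ← div_eq_mul_inv]
      rfl
    rw [h1] at hu
    rw [map_mul, map_pow]
    exact hu
  -- the form
  have hXX : ⁅X, X⁆ ≤ Y := commutator_le.mpr hcomm
  have hbXX : zpowers b ≤ normalizer ((⁅X, X⁆ : Subgroup G) : Set G) := by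
    rw [zpowers_le]
    exact H32PSolv.le_normalizer_commutator (K := zpowers b) (zpowers_le.mpr hbX) (zpowers_le.mpr hbX) (mem_zpowers b)
  set K : Subgroup G := ⁅⁅X, X⁆, zpowers b⁆ with hK
  have hKXX : K ≤ ⁅X, X⁆ := Subgroup.le_normalizer_iff_commutator_le_left.mp hbXX
  let _ : CommGroup Y := { (inferInstance : Group Y) with
    mul_comm := fun a c => Subtype.ext (hYc a (hYX.le a.2) c c.2) }
  let f : X → (X →* Y ⧸ K.subgroupOf Y) := fun v =>
    { toFun := fun u => QuotientGroup.mk' _ ⟨⁅(u : G), (v : G)⁆, hcomm u u.2 v v.2⟩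
      map_one' := by
        have h1 : (⟨⁅((1 : X) : G), (v : G)⁆, hcomm _ (1 : X).2 v v.2⟩ : Y) = 1 := Subtype.ext (by simp)
        rw [h1, map_one]
      map_mul' := by
        intro u u'
        rw [← map_mul]
        congr 1
        apply Subtype.ext
        have h1 := hcomm _ u'.2 _ v.2
        have h3 := hYc _ u.2 _ h1
        have h4 := hYc _ (hYX.le (hcomm _ u.2 _ v.2)) _ h1
        change ⁅(u : G) * (u' : G), (v : G)⁆ = ⁅(u : G), (v : G)⁆ * ⁅(u' : G), (v : G)⁆
        calc ⁅(u : G) * (u' : G), (v : G)⁆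
            = (u : G) * ⁅(u' : G), (v : G)⁆ * (u : G)⁻¹ * ⁅(u : G), (v : G)⁆ := by
              simp only [commutatorElement_def]; group
          _ = ⁅(u' : G), (v : G)⁆ * ⁅(u : G), (v : G)⁆ := by rw [h3]; group
          _ = _ := h4.symm }
  have hf1 : ∀ u v : X, f v u = 1 ↔ ⁅(u : G), (v : G)⁆ ∈ K := by
    intro u v
    change QuotientGroup.mk' _ _ = 1 ↔ _
    rw [QuotientGroup.mk'_apply, QuotientGroup.eq_one_iff, mem_subgroupOf]
  have hfs : ∀ u v : X, f v u = (f u v)⁻¹ := by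
    intro u v
    change QuotientGroup.mk' _ _ = (QuotientGroup.mk' _ _)⁻¹
    rw [← map_inv]
    congr 1
    apply Subtype.ext
    change ⁅(u : G), (v : G)⁆ = ⁅(v : G), (u : G)⁆⁻¹
    rw [commutatorElement_inv]
  have hfY : ∀ (v u : X), (u : G) ∈ Y → f v u = 1 := by
    intro v u hu
    rw [hf1]
    have h1 : ⁅(u : G), (v : G)⁆ = 1 := by
      rw [commutatorElement_eq_one_iff_mul_comm]
      exact (hYc v v.2 u hu).symm
    rw [h1]; exact one_mem _
  have hfc : ∀ (v u u' : X), π u = π u' → f v u = f v u' := by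
    intro v u u' h
    have h1 : π (u * u'⁻¹) = 1 := by rw [map_mul, map_inv, h, mul_inv_cancel]
    rw [hker] at h1
    have h2 := hfY v _ h1
    rwa [map_mul, map_inv, mul_inv_eq_one] at h2
  -- invariance
  have hinv : ∀ (h : H) (u v : X), f (cj (hHX h.2) v) (cj (hHX h.2) u) = f v u := by
    intro h u v
    obtain ⟨q, hq, c, hc, hqc⟩ := LocBase.exists_mul_of_mem_sup_of_le hzQ h.2
    have h1 : ⁅(h : G) * u * (h : G)⁻¹, (h : G) * v * (h : G)⁻¹⁆ = c * ⁅(u : G), (v : G)⁆ * c⁻¹ := by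
      have h2 : c * ⁅(u : G), (v : G)⁆ * c⁻¹ ∈ Y := by
        have h3 : c ∈ normalizer (Y : Set G) := hHY (mem_sup_right hc)
        exact (mem_normalizer_iff.mp h3 _).mp (hcomm _ u.2 _ v.2)
      have h3 := mem_centralizer_iff.mp (hYQ h2) q hq
      calc ⁅(h : G) * u * (h : G)⁻¹, (h : G) * v * (h : G)⁻¹⁆
          = q * (c * ⁅(u : G), (v : G)⁆ * c⁻¹) * q⁻¹ := by
            rw [hqc]; simp only [commutatorElement_def]; group
        _ = _ := by rw [h3]; group
    change QuotientGroup.mk' _ _ = QuotientGroup.mk' _ _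
    rw [QuotientGroup.mk'_apply, QuotientGroup.mk'_apply, QuotientGroup.eq, mem_subgroupOf]
    change (⁅(h : G) * u * (h : G)⁻¹, (h : G) * v * (h : G)⁻¹⁆)⁻¹ * ⁅(u : G), (v : G)⁆ ∈ K
    rw [h1]
    have h4 : (c * ⁅(u : G), (v : G)⁆ * c⁻¹)⁻¹ * ⁅(u : G), (v : G)⁆ = ⁅c, ⁅(u : G), (v : G)⁆⁻¹⁆ := by
      simp only [commutatorElement_def]; group
    rw [h4, ← commutatorElement_inv]
    exact inv_mem (commutator_mem_commutator (inv_mem (commutator_mem_commutator u.2 v.2)) hc)
  -- `f x z = 1`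
  have hxz : f x z = 1 := by
    let g : Multiplicative W →* Y ⧸ K.subgroupOf Y := (π.liftOfSurjective hπ) ⟨f x, by
      intro u hu
      rw [MonoidHom.mem_ker] at hu ⊢
      exact hfY x u ((hker u).mp hu)⟩
    have hg : ∀ u, g (π u) = f x u := fun u =>
      π.liftOfRightInverse_comp_apply _ (Function.rightInverse_surjInv hπ) ⟨f x, _⟩ u
    have h1 : f x z = ∏ c : C, f x (cj (hHX (c : H).2) x) := by
      rw [← hg, hz, hNdef, LinearMap.sum_apply, ofAdd_sum, map_prod]
      apply Finset.prod_congr rfl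
      intro c _
      rw [hρ]
      exact hg _
    have h2 : f x z = ∏ c : C, (f x (cj (hHX (c : H).2) x))⁻¹ := by
      rw [h1, ← Equiv.prod_comp (Equiv.inv C)]
      apply Finset.prod_congr rfl
      intro c _
      have h3 := hinv (c : H) (cj (hHX ((c : H)⁻¹).2) x) x
      have h4 : cj (hHX (c : H).2) (cj (hHX ((c : H)⁻¹).2) x) = x := by
        apply Subtype.ext
        rw [cj_val, cj_val, Subgroup.coe_inv]
        group
      rw [h4] at h3
      have h5 : f x (cj (hHX (((Equiv.inv C) c : C) : H).2) x) = f x (cj (hHX ((c : H)⁻¹).2) x) := rfl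
      rw [h5, ← h3, hfs]
    rw [Finset.prod_inv_distrib, ← h1] at h2
    have h3 : (f x z) ^ 2 = 1 := by
      rw [pow_two]; nth_rewrite 1 [h2]; rw [inv_mul_cancel]
    have h4 : (f x z) ^ p = 1 := by
      change (QuotientGroup.mk' (K.subgroupOf Y) ⟨⁅(z : G), (x : G)⁆, _⟩) ^ p = 1
      rw [← map_pow]
      have h5 : (⟨⁅(z : G), (x : G)⁆, hcomm z z.2 x x.2⟩ : Y) ^ p = 1 :=
        Subtype.ext (hexp _ (hYX.le (hcomm z z.2 x x.2)))
      rw [h5, map_one]
    have h5 : (2 : ℕ).Coprime p := (Nat.coprime_primes Nat.prime_two hp.out).mpr (Ne.symm hp2)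
    have h6 := Nat.dvd_gcd (orderOf_dvd_of_pow_eq_one h3) (orderOf_dvd_of_pow_eq_one h4)
    rw [h5] at h6
    exact orderOf_eq_one_iff.mp (Nat.dvd_one.mp h6)
  have hbz : π (cj hbX z) = π z := by
    have h1 := hρ b' z
    rw [hz] at h1
    have h2 : ρ b' (N (Multiplicative.toAdd (π x))) = N (Multiplicative.toAdd (π x)) :=
      LinearMap.congr_fun hbN _
    have h3 : Multiplicative.toAdd (π (cj hbX z)) = N (Multiplicative.toAdd (π x)) := h1.symm.trans h2
    rw [hz]
    exact h3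
  have hvz : ∀ v : X, f v z = 1 := by
    intro v
    obtain ⟨n, w, hw⟩ := hspan v
    have h1 : f z v = 1 := by
      rw [hfc z _ _ hw, map_mul, map_pow, map_mul, map_inv]
      have h2 : f z x = 1 := by rw [hfs, hxz, inv_one]
      have h3 : f z (cj hbX w) = f z w := by
        have h4 : f (cj hbX z) (cj hbX w) = f z w := hinv b' w z
        rw [← h4, hfs, hfs _ (cj hbX z), hfc _ _ _ hbz]
      rw [h2, h3, one_pow, mul_inv_cancel, one_mul]
    rw [hfs, h1, inv_one]
  -- the radical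
  let R : Subgroup G := (⨅ v : X, (f v).ker).map X.subtype
  have hR : ∀ u : X, (u : G) ∈ R ↔ ∀ v, f v u = 1 := by
    intro u
    constructor
    · rintro ⟨u', hu', h⟩ v
      have : u' = u := Subtype.ext h
      rw [this] at hu'
      exact (mem_iInf.mp hu') v
    · intro h
      exact ⟨u, mem_iInf.mpr h, rfl⟩
  have hRX : R ≤ X := map_subtype_le _
  rcases hirr R (fun y hy => (hR ⟨y, hYX.le hy⟩).mpr (fun v => hfY v _ hy)) hRX (by
    rw [Subgroup.le_normalizer_iff]
    intro h hh u hu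
    have h1 := (hR ⟨u, hRX hu⟩).mp hu
    apply (hR (cj (hHX hh) ⟨u, hRX hu⟩)).mpr
    intro v
    have h2 := hinv ⟨h, hh⟩ ⟨u, hRX hu⟩ (cj (hHX (inv_mem hh)) v)
    have h4 : cj (hHX hh) (cj (hHX (inv_mem hh)) v) = v := by
      apply Subtype.ext
      rw [cj_val, cj_val]
      group
    rw [h4] at h2
    rw [h2, h1]) with h1 | h1
  · have h2 := (hR z).mpr hvz
    rw [h1] at h2
    exact hzY h2
  -- `X` is abelian
  have hXXK : ⁅X, X⁆ ≤ K := by
    rw [commutator_le]
    intro u hu v hv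
    rw [← hf1 ⟨u, hu⟩ ⟨v, hv⟩]
    apply (hR ⟨u, hu⟩).mp
    rw [h1]; exact hu
  have hXp : IsPGroup p X := fun u => ⟨1, Subtype.ext (by rw [pow_one]; exact hexp u u.2)⟩
  have hbp : IsPGroup p (zpowers b) := by
    intro u
    refine ⟨1, ?_⟩
    obtain ⟨n, hn⟩ := mem_zpowers_iff.mp u.2
    apply Subtype.ext
    rw [pow_one]
    change (u : G) ^ p = 1
    rw [← hn, ← zpow_natCast, ← zpow_mul, mul_comm, zpow_mul, zpow_natCast, hb, one_zpow]
  have hXX1 : ⁅X, X⁆ = ⊥ := by
    by_contra hne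
    have h2 := CoprimeAction2.commutator_lt_of_pgroup hbp (hXp.to_le (hXX.trans hYX.le)) hbXX hne
    exact absurd hXXK (not_le_of_gt h2)
  have hXab : IsMulCommutative X := by
    refine ⟨⟨fun u v => Subtype.ext ?_⟩⟩
    have : ⁅(u : G), (v : G)⁆ ∈ ⁅X, X⁆ := commutator_mem_commutator u.2 v.2
    rw [hXX1, mem_bot] at this
    exact commutatorElement_eq_one_iff_mul_comm.mp this
  have hQX : Q ≤ normalizer (X : Set G) := hQH.trans hHX
  set M : Subgroup G := ⁅X, Q⁆ with hM
  have hMX : M ≤ X := Subgroup.le_normalizer_iff_commutator_le_left.mp hQX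
  have hMne : M ≠ ⊥ := by
    intro h
    obtain ⟨k, hkQ, hk⟩ := hk
    apply hk
    intro u hu
    have : ⁅u, k⁆ ∈ M := commutator_mem_commutator hu hkQ
    rw [h, mem_bot] at this
    rw [this]; exact one_mem _
  have hbM : zpowers b ≤ normalizer (M : Set G) :=
    H32PSolv.le_normalizer_commutator (zpowers_le.mpr hbX) (zpowers_le.mpr hbQ)
  have h2 := PAct.inf_centralizer_ne_bot hbp (hXp.to_le hMX) hMne hbM
  apply h2
  rw [eq_bot_iff]
  intro m hm
  obtain ⟨hmM, hmb⟩ := mem_inf.mp hm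
  have h3 : m ∈ Y := hCX m (hMX hmM) (mem_centralizer_iff.mp hmb b (mem_zpowers b)).symm
  obtain ⟨n, hn⟩ := IsPGroup.iff_card.mp hXp
  have h4 := CoprimeAction2.inf_commutator_eq_bot_of_abelian (A := Q) (V := X) hQX
    (by rw [hn]; exact Nat.Coprime.pow_right n hQ)
  rw [← h4]
  exact mem_inf.mpr ⟨mem_inf.mpr ⟨hMX hmM, hYQ h3⟩, hmM⟩

end Main

end Cfsg.Agent.Lib.FrobForm
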