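import Mathlib

/-!
# Galois descent for semilocal rings with a free action (helper11)

If a finite group `H` acts on a semilocal commutative ring `R` so that no non-identity element acts trivially on
a residue field (in the sense `∃ s, h • s - s ∉ 𝔪`), then there is `c` with `det ((g h) • c)_{g,h}` a unit.
-/

set_option autoImplicit false

namespace Cfsg.Agent.Lib.FrobFree

open scoped Pointwise
open Matrix

section field

variable (D L : Type*) [Group D] [Fintype D] [Field L] [MulSemiringAction D L] [FaithfulSMul D L]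

theorem exists_normal : ∃ x : L, ∀ y : D → L, (∀ d' : D, ∑ d : D, y d * ((d * d') • x) = 0) → ∀ d, y d = 0 := by
  classical
  set K := FixedPoints.subfield D L with hK
  have : FiniteDimensional K L := inferInstance
  have : IsGalois K L := inferInstance
  set b := IsGalois.normalBasis K L with hb
  refine ⟨b 1, fun y hy => ?_⟩
  -- the linear map
  let Λ : L →ₗ[K] L := ∑ d : D, (LinearMap.mulLeft K (y d)).comp (MulSemiringAction.toAlgHom K L d).toLinearMap
  have hΛ : ∀ z : L, Λ z = ∑ d : D, y d * (d • z) := by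
    intro z
    simp only [Λ, LinearMap.sum_apply, LinearMap.comp_apply, LinearMap.mulLeft_apply]
    rfl
  have h0 : Λ = 0 := by
    apply b.ext
    intro σ
    obtain ⟨d', hd'⟩ := (FixedPoints.toAlgAut_bijective D L).surjective σ
    have h1 : b σ = d' • b 1 := by
      rw [hb, IsGalois.normalBasis_apply, ← hd']
      rfl
    rw [hΛ, h1, LinearMap.zero_apply, ← hy d']
    apply Finset.sum_congr rfl
    intro d _
    rw [mul_smul]
  have h1 : ∀ z : L, ∑ d : D, y d * (d • z) = 0 := by
    intro z
    rw [← hΛ, h0, LinearMap.zero_apply]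
  -- independence of characters
  have hinj : Function.Injective (fun d : D => ((MulSemiringAction.toRingHom D L d : L →+* L) : L →* L)) := by
    intro d e h
    apply FaithfulSMul.eq_of_smul_eq_smul (α := L)
    intro z
    exact DFunLike.congr_fun h z
  have h2 := (linearIndependent_monoidHom L L).comp _ hinj
  rw [Fintype.linearIndependent_iff] at h2
  apply h2 y
  funext z
  rw [Finset.sum_apply]
  exact h1 z

end field

section quot

variable {R H : Type*} [CommRing R] [Group H] [MulSemiringAction H R] (I : Ideal R)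

theorem stab_le_comap (d : MulAction.stabilizer H I) :
    I ≤ I.comap (MulSemiringAction.toRingHom H R (d : H)) := by
  intro x hx
  have h1 : (d : H) • I = I := d.2
  rw [Ideal.mem_comap]
  have := Ideal.smul_mem_pointwise_smul (d : H) x I hx
  rw [h1] at this
  exact this

/-- the action of the stabilizer of an ideal on the quotient -/
@[reducible] def quotAction : MulSemiringAction (MulAction.stabilizer H I) (R ⧸ I) where
  smul d := Ideal.quotientMap I (MulSemiringAction.toRingHom H R (d : H)) (stab_le_comap I d)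
  one_smul x := by
    obtain ⟨x, rfl⟩ := Ideal.Quotient.mk_surjective x
    change Ideal.Quotient.mk I ((1 : H) • x) = _
    rw [one_smul]
  mul_smul a b x := by
    obtain ⟨x, rfl⟩ := Ideal.Quotient.mk_surjective x
    change Ideal.Quotient.mk I (((a : H) * (b : H)) • x) = Ideal.Quotient.mk I ((a : H) • (b : H) • x)
    rw [mul_smul]
  smul_zero a := map_zero _
  smul_add a := map_add _
  smul_one a := map_one _
  smul_mul a := map_mul _

end quot

section ring

variable {R H : Type*} [CommRing R] [Group H] [Fintype H] [MulSemiringAction H R]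

theorem exists_normal_quot (𝔪 : Ideal R) (hm : 𝔪.IsMaximal)
    (faith : ∀ h : H, h ≠ 1 → ∃ s : R, h • s - s ∉ 𝔪) :
    ∃ x : R, ∀ y : MulAction.stabilizer H 𝔪 → R,
      (∀ d' : MulAction.stabilizer H 𝔪, ∑ᶠ d : MulAction.stabilizer H 𝔪, y d * (((d : H) * (d' : H)) • x) ∈ 𝔪) →
      ∀ d, y d ∈ 𝔪 := by
  classical
  letI : Field (R ⧸ 𝔪) := Ideal.Quotient.field 𝔪
  letI := quotAction (H := H) 𝔪
  have : FaithfulSMul (MulAction.stabilizer H 𝔪) (R ⧸ 𝔪) := by
    refine ⟨fun {a b} h => ?_⟩
    by_contra hne
    have h1 : ((a⁻¹ * b : MulAction.stabilizer H 𝔪) : H) ≠ 1 := by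
      intro h1
      apply hne
      have h2 : a⁻¹ * b = 1 := Subtype.ext h1
      rw [inv_mul_eq_one] at h2
      exact h2
    obtain ⟨s, hs⟩ := faith _ h1
    apply hs
    rw [← Ideal.Quotient.eq_zero_iff_mem, map_sub, sub_eq_zero]
    change (a⁻¹ * b) • (Ideal.Quotient.mk 𝔪 s) = Ideal.Quotient.mk 𝔪 s
    rw [mul_smul, ← h, inv_smul_smul]
  obtain ⟨x, hx⟩ := exists_normal (MulAction.stabilizer H 𝔪) (R ⧸ 𝔪)
  obtain ⟨x, rfl⟩ := Ideal.Quotient.mk_surjective x
  refine ⟨x, fun y hy d => ?_⟩
  rw [← Ideal.Quotient.eq_zero_iff_mem]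
  apply hx (fun d => Ideal.Quotient.mk 𝔪 (y d))
  intro d'
  have h1 := hy d'
  rw [finsum_eq_sum_of_fintype, ← Ideal.Quotient.eq_zero_iff_mem, map_sum] at h1
  rw [← h1]
  apply Finset.sum_congr rfl
  intro d _
  rw [map_mul]
  rfl

end ring

end Cfsg.Agent.Lib.FrobFree
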