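import Cfsg.Agent.Lib.FrobFree1

/-!
# Existence of a normal element in a semilocal ring (helper11)
-/

set_option autoImplicit false

namespace Cfsg.Agent.Lib.FrobFree

open scoped Pointwise
open Matrix

variable {R H : Type*} [CommRing R] [Group H] [Fintype H] [MulSemiringAction H R]

/-- a representative of the orbit of an ideal -/
noncomputable def rp (H : Type*) [Group H] [MulSemiringAction H R] (I : Ideal R) : Ideal R :=
  (Quotient.mk (MulAction.orbitRel H (Ideal R)) I).out

omit [Fintype H] in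
theorem exists_rp (I : Ideal R) : ∃ h : H, h • I = rp H I := by
  have h1 := Quotient.exact (Quotient.out_eq (Quotient.mk (MulAction.orbitRel H (Ideal R)) I))
  have h2 : (MulAction.orbitRel H (Ideal R)) (rp H I) I := h1
  rw [MulAction.orbitRel_apply] at h2
  obtain ⟨h, hh⟩ := h2
  exact ⟨h, hh⟩

omit [Fintype H] in
theorem rp_smul (h : H) (I : Ideal R) : rp H (h • I) = rp H I := by
  unfold rp
  congr 1
  apply Quotient.sound
  change (MulAction.orbitRel H (Ideal R)) (h • I) I
  rw [MulAction.orbitRel_apply]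
  exact ⟨h, rfl⟩

omit [Fintype H] in
theorem smul_isMaximal {I : Ideal R} (hI : I.IsMaximal) (h : H) : (h • I).IsMaximal := by
  rw [Ideal.pointwise_smul_eq_comap]
  exact Ideal.comap_isMaximal_of_equiv (MulSemiringAction.toRingEquiv H R h).symm (p := I)

theorem exists_unit_det [Finite (MaximalSpectrum R)] [DecidableEq H]
    (faith : ∀ 𝔪 : Ideal R, 𝔪.IsMaximal → ∀ h : H, h ≠ 1 → ∃ s : R, h • s - s ∉ 𝔪) :
    ∃ c : R, IsUnit (Matrix.of fun g h : H => (g * h) • c).det := by
  classical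
  have hx : ∀ 𝔪 : MaximalSpectrum R, ∃ x : R, ∀ y : MulAction.stabilizer H 𝔪.asIdeal → R,
      (∀ d' : MulAction.stabilizer H 𝔪.asIdeal,
        ∑ᶠ d : MulAction.stabilizer H 𝔪.asIdeal, y d * (((d : H) * (d' : H)) • x) ∈ 𝔪.asIdeal) →
      ∀ d, y d ∈ 𝔪.asIdeal := fun 𝔪 => exists_normal_quot 𝔪.asIdeal 𝔪.isMaximal (faith _ 𝔪.isMaximal)
  choose x hx using hx
  have hcop : Pairwise (Function.onFun IsCoprime fun 𝔪 : MaximalSpectrum R => 𝔪.asIdeal) := by
    intro 𝔪 𝔫 hne
    apply Ideal.isCoprime_of_isMaximal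
    intro h
    exact hne (MaximalSpectrum.ext h)
  obtain ⟨c, hc⟩ := Ideal.exists_forall_sub_mem_ideal hcop
    (fun 𝔪 => if rp H 𝔪.asIdeal = 𝔪.asIdeal then x 𝔪 else 0)
  refine ⟨c, ?_⟩
  set M : Matrix H H R := Matrix.of fun g h : H => (g * h) • c with hM
  by_contra hunit
  obtain ⟨𝔫, hnmax, hn⟩ := exists_max_ideal_of_mem_nonunits (mem_nonunits_iff.2 hunit)
  obtain ⟨g0, hg0⟩ := exists_rp (H := H) 𝔫
  have htmax : (rp H 𝔫).IsMaximal := by rw [← hg0]; exact smul_isMaximal hnmax g0
  obtain ⟨t, ht⟩ : ∃ t : MaximalSpectrum R, t.asIdeal = rp H 𝔫 := ⟨⟨_, htmax⟩, rfl⟩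
  have hrt : rp H t.asIdeal = t.asIdeal := by
    rw [ht, ← hg0, rp_smul, hg0]
  -- the determinant lies in `t`
  have hdet : M.det ∈ t.asIdeal := by
    have h1 : g0 • M.det ∈ t.asIdeal := by
      rw [ht, ← hg0]
      exact Ideal.smul_mem_pointwise_smul g0 _ _ hn
    have h2 : g0 • M.det = (M.submatrix (Equiv.mulLeft g0) id).det := by
      have h3 : g0 • M.det = (MulSemiringAction.toRingHom H R g0) M.det := rfl
      rw [h3, RingHom.map_det]
      congr 1
      ext g h
      simp only [RingHom.mapMatrix_apply, Matrix.map_apply, hM, Matrix.of_apply, Matrix.submatrix_apply, id,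
        Equiv.coe_mulLeft]
      change g0 • (g * h) • c = _
      rw [← mul_smul, mul_assoc]
    rw [h2, Matrix.det_permute] at h1
    have h4 : M.det = ((Equiv.Perm.sign (Equiv.mulLeft g0) : ℤˣ) : ℤ) *
        (((Equiv.Perm.sign (Equiv.mulLeft g0) : ℤˣ) : ℤ) * M.det) := by
      rw [← mul_assoc, ← Int.cast_mul, ← Units.val_mul, Int.units_mul_self]
      simp
    rw [h4]
    exact Ideal.mul_mem_left _ _ h1
  have htm := t.isMaximal
  let _ : Field (R ⧸ t.asIdeal) := Ideal.Quotient.field t.asIdeal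
  have hdet' : ((Ideal.Quotient.mk t.asIdeal).mapMatrix M).det = 0 := by
    rw [← RingHom.map_det, Ideal.Quotient.eq_zero_iff_mem]
    exact hdet
  obtain ⟨v, hv0, hv⟩ := Matrix.exists_vecMul_eq_zero_iff.2 hdet'
  have hy : ∃ y : H → R, ∀ g, Ideal.Quotient.mk t.asIdeal (y g) = v g := by
    choose y hy using fun g => Ideal.Quotient.mk_surjective (v g)
    exact ⟨y, hy⟩
  obtain ⟨y, hy⟩ := hy
  have hsum : ∀ h : H, ∑ g : H, y g * ((g * h) • c) ∈ t.asIdeal := by
    intro h
    rw [← Ideal.Quotient.eq_zero_iff_mem, map_sum]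
    have h1 := congrFun hv h
    rw [Matrix.vecMul, dotProduct, Pi.zero_apply] at h1
    rw [← h1]
    apply Finset.sum_congr rfl
    intro g _
    rw [map_mul, hy]
    rfl
  apply hv0
  funext g1
  rw [Pi.zero_apply, ← hy, Ideal.Quotient.eq_zero_iff_mem]
  have key := hx t (fun d => y ((d : H) * g1)) (by
    intro d'
    rw [finsum_eq_sum_of_fintype]
    have h1 := hsum (g1⁻¹ * d')
    rw [← Equiv.sum_comp (Equiv.mulRight g1)] at h1
    simp only [Equiv.coe_mulRight] at h1
    rw [← Finset.sum_filter_add_sum_filter_not Finset.univ (fun k : H => k ∈ MulAction.stabilizer H t.asIdeal)] at h1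
    have h2 : ∑ k ∈ Finset.univ.filter (fun k : H => ¬ k ∈ MulAction.stabilizer H t.asIdeal),
        y (k * g1) * ((k * g1 * (g1⁻¹ * (d' : H))) • c) ∈ t.asIdeal := by
      apply Ideal.sum_mem
      intro k hk
      rw [Finset.mem_filter] at hk
      apply Ideal.mul_mem_left
      have hk' : k * g1 * (g1⁻¹ * (d' : H)) = k * d' := by group
      rw [hk']
      set l := k * (d' : H) with hl
      have hlt : l⁻¹ • t.asIdeal ≠ t.asIdeal := by
        intro h
        apply hk.2
        have h3 : l⁻¹ ∈ MulAction.stabilizer H t.asIdeal := h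
        have h4 : k = (l⁻¹)⁻¹ * (d' : H)⁻¹ := by rw [hl]; group
        rw [h4]
        exact mul_mem (inv_mem h3) (inv_mem d'.2)
      obtain ⟨t', ht'⟩ : ∃ t' : MaximalSpectrum R, t'.asIdeal = l⁻¹ • t.asIdeal :=
        ⟨⟨_, smul_isMaximal t.isMaximal l⁻¹⟩, rfl⟩
      have h5 := hc t'
      have h6 : ¬ rp H t'.asIdeal = t'.asIdeal := by
        rw [ht', rp_smul, hrt]
        exact fun h => hlt h.symm
      simp only [if_neg h6, sub_zero] at h5
      rw [ht', Ideal.mem_inv_pointwise_smul_iff] at h5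
      exact h5
    have h3 := (Ideal.add_mem_iff_left _ h2).1 h1
    rw [Finset.sum_subtype (p := fun k : H => k ∈ MulAction.stabilizer H t.asIdeal) _ (by simp)] at h3
    -- replace `c` by `x t`
    have h4 : ∑ d : MulAction.stabilizer H t.asIdeal, y ((d : H) * g1) * (((d : H) * g1 * (g1⁻¹ * (d' : H))) • c) -
        ∑ d : MulAction.stabilizer H t.asIdeal, y ((d : H) * g1) * (((d : H) * (d' : H)) • x t) ∈ t.asIdeal := by
      rw [← Finset.sum_sub_distrib]
      apply Ideal.sum_mem
      intro d _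
      have hk' : (d : H) * g1 * (g1⁻¹ * (d' : H)) = d * d' := by group
      rw [hk', ← mul_sub, ← smul_sub]
      apply Ideal.mul_mem_left
      have h5 := hc t
      simp only [if_pos hrt] at h5
      have h6 : ((d : H) * (d' : H)) • t.asIdeal = t.asIdeal := (d * d').2
      have h7 := Ideal.smul_mem_pointwise_smul ((d : H) * (d' : H)) _ _ h5
      rwa [h6] at h7
    have h5 := Ideal.sub_mem _ h3 h4
    rw [sub_sub_cancel] at h5
    exact h5)
  have := key 1
  simpa using this

end Cfsg.Agent.Lib.FrobFree
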