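import Cfsg.Agent.Lib.FrobFree2

/-!
# Freeness over a finite group by Galois descent (helper11)
-/

set_option autoImplicit false

namespace Cfsg.Agent.Lib.FrobFree

open Matrix

section free

variable {k V H : Type*} [Field k] [AddCommGroup V] [Module k V] [Group H] [Fintype H]

/-- `U` is the direct sum of the translates of `W` (elementwise form) -/
structure FreeOn (ρ : Representation k H V) (U W : Submodule k V) : Prop where
  le : W ≤ U
  indep : ∀ u : H → V, (∀ h, u h ∈ W) → ∑ h, ρ h (u h) = 0 → ∀ h, u h = 0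
  span : ∀ v ∈ U, ∃ u : H → V, (∀ h, u h ∈ W) ∧ ∑ h, ρ h (u h) = v

theorem FreeOn.bot (ρ : Representation k H V) : FreeOn ρ ⊥ ⊥ := by
  refine ⟨le_rfl, fun u hu _ h => ?_, fun v hv => ⟨0, fun h => zero_mem _, ?_⟩⟩
  · exact (Submodule.mem_bot k).1 (hu h)
  · rw [Submodule.mem_bot] at hv
    rw [hv]
    simp

theorem FreeOn.sup {ρ : Representation k H V} {U₁ U₂ W₁ W₂ : Submodule k V} (hc : Disjoint U₁ U₂)
    (h1 : ∀ h, ∀ v ∈ U₁, ρ h v ∈ U₁) (h2 : ∀ h, ∀ v ∈ U₂, ρ h v ∈ U₂)
    (F1 : FreeOn ρ U₁ W₁) (F2 : FreeOn ρ U₂ W₂) : FreeOn ρ (U₁ ⊔ U₂) (W₁ ⊔ W₂) := by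
  refine ⟨sup_le_sup F1.le F2.le, fun u hu hsum => ?_, fun v hv => ?_⟩
  · choose a ha b hb hab using fun h => Submodule.mem_sup.1 (hu h)
    have h3 : ∑ h, ρ h (a h) ∈ U₁ := Submodule.sum_mem _ fun h _ => h1 h _ (F1.le (ha h))
    have h4 : ∑ h, ρ h (b h) ∈ U₂ := Submodule.sum_mem _ fun h _ => h2 h _ (F2.le (hb h))
    have h5 : ∑ h, ρ h (a h) + ∑ h, ρ h (b h) = 0 := by
      rw [← Finset.sum_add_distrib, ← hsum]
      apply Finset.sum_congr rfl
      intro h _
      rw [← map_add, hab]
    have h6 : ∑ h, ρ h (a h) = 0 := by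
      have h7 : ∑ h, ρ h (a h) ∈ U₂ := by
        rw [add_eq_zero_iff_eq_neg] at h5
        rw [h5]
        exact Submodule.neg_mem _ h4
      exact Submodule.disjoint_def.1 hc _ h3 h7
    have h7 : ∑ h, ρ h (b h) = 0 := by rwa [h6, zero_add] at h5
    intro h
    rw [← hab h, F1.indep a ha h6 h, F2.indep b hb h7 h, add_zero]
  · obtain ⟨v1, hv1, v2, hv2, rfl⟩ := Submodule.mem_sup.1 hv
    obtain ⟨a, ha, hav⟩ := F1.span v1 hv1
    obtain ⟨b, hb, hbv⟩ := F2.span v2 hv2
    refine ⟨fun h => a h + b h, fun h => Submodule.add_mem_sup (ha h) (hb h), ?_⟩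
    rw [← hav, ← hbv, ← Finset.sum_add_distrib]
    apply Finset.sum_congr rfl
    intro h _
    rw [map_add]

/-- freeness on a submodule from freeness on the type -/
theorem FreeOn.map_subtype {ρ : Representation k H V} {U : Submodule k V} {σ : Representation k H U}
    (hσ : ∀ h (u : U), ((σ h u : U) : V) = ρ h u) {W : Submodule k U} (F : FreeOn σ ⊤ W) :
    FreeOn ρ U (W.map U.subtype) := by
  refine ⟨Submodule.map_subtype_le _ _, fun u hu hsum => ?_, fun v hv => ?_⟩
  · choose a ha hau using fun h => Submodule.mem_map.1 (hu h)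
    have h1 : ∑ h, σ h (a h) = 0 := by
      apply Subtype.ext
      rw [Submodule.coe_sum, Submodule.coe_zero, ← hsum]
      apply Finset.sum_congr rfl
      intro h _
      rw [hσ, ← hau]
      rfl
    intro h
    rw [← hau, F.indep a ha h1 h, map_zero]
  · obtain ⟨a, ha, hav⟩ := F.span ⟨v, hv⟩ trivial
    refine ⟨fun h => a h, fun h => ⟨a h, ha h, rfl⟩, ?_⟩
    have h1 := congrArg Subtype.val hav
    rw [Submodule.coe_sum] at h1
    refine Eq.trans ?_ h1
    apply Finset.sum_congr rfl
    intro h _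
    rw [hσ]

theorem FreeOn.isInternal [DecidableEq H] {ρ : Representation k H V} {W : Submodule k V} (F : FreeOn ρ ⊤ W) :
    DirectSum.IsInternal (fun h : H => W.map (ρ h)) := by
  classical
  apply DirectSum.isInternal_submodule_of_iSupIndep_of_iSup_eq_top
  · rw [iSupIndep_iff_forall_dfinsupp]
    intro i x v hv
    -- lift all components
    have hlift : ∀ h, ∃ u ∈ W, ρ h u = (v h : V) := fun h => Submodule.mem_map.1 (v h).2
    choose u hu huv using hlift
    have hx : ∃ w ∈ W, ρ i w = (x : V) := Submodule.mem_map.1 x.2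
    obtain ⟨w, hw, hwx⟩ := hx
    have h1 : ∑ h, ρ h ((fun h => if h = i then w else -u h) h) = 0 := by
      have h2 : ∀ h, ρ h ((fun h => if h = i then w else -u h) h) =
          (if h = i then (x : V) else 0) - (if h = i then 0 else (v h : V)) := by
        intro h
        by_cases hh : h = i
        · subst hh
          simp [hwx]
        · simp [hh, huv]
      rw [Finset.sum_congr rfl fun h _ => h2 h, Finset.sum_sub_distrib]
      simp only [Finset.sum_ite_eq', Finset.mem_univ, if_true]
      rw [sub_eq_zero, ← hv]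
      rw [DFinsupp.lsum_apply_apply, DFinsupp.sumAddHom_apply, DFinsupp.sum_eq_sum_fintype]
      · apply Finset.sum_congr rfl
        intro h _
        by_cases hh : h = i
        · subst hh; simp
        · simp [hh]
      · intro h; simp
    have h2 := F.indep _ (by
      intro h
      by_cases hh : h = i
      · simp only [hh, if_true]; exact hw
      · simp only [hh, if_false]; exact Submodule.neg_mem _ (hu h)) h1 i
    simp only [if_true] at h2
    apply Subtype.ext
    rw [← hwx, h2, map_zero]
    rfl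
  · rw [eq_top_iff]
    intro v _
    obtain ⟨u, hu, rfl⟩ := F.span v trivial
    apply Submodule.sum_mem
    intro h _
    exact Submodule.mem_iSup_of_mem h ⟨u h, hu h, rfl⟩

end free

section descent

variable {k V H R : Type*} [Field k] [AddCommGroup V] [Module k V] [Group H] [Fintype H] [DecidableEq H]
  [CommRing R] [MulSemiringAction H R]

theorem descent (ρ : Representation k H V) (π : R →+* Module.End k V)
    (hπ : ∀ (h : H) (r : R) (v : V), ρ h (π r v) = π (h • r) (ρ h v)) (c : R)
    (hc : IsUnit (Matrix.of fun g h : H => (g * h) • c).det) :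
    FreeOn ρ ⊤ ((Representation.invariants ρ).map (π c)) := by
  set M : Matrix H H R := Matrix.of fun g h : H => (g * h) • c with hM
  have hMB : M * M⁻¹ = 1 := Matrix.mul_nonsing_inv M hc
  have hBM : M⁻¹ * M = 1 := Matrix.nonsing_inv_mul M hc
  have hMa : ∀ g h, M g h = (g * h) • c := fun g h => rfl
  -- equivariance of the inverse
  have hB : ∀ g0 h g : H, g0 • M⁻¹ h g = M⁻¹ h (g0 * g) := by
    intro g0
    set B' : Matrix H H R := Matrix.of fun h g => g0 • M⁻¹ h (g0⁻¹ * g) with hB'
    have h1 : B' * M = 1 := by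
      ext h h'
      rw [Matrix.mul_apply, ← Equiv.sum_comp (Equiv.mulLeft g0)]
      have h2 : ∀ g, B' h ((Equiv.mulLeft g0) g) * M ((Equiv.mulLeft g0) g) h' = g0 • (M⁻¹ h g * M g h') := by
        intro g
        rw [hB', Matrix.of_apply, Equiv.coe_mulLeft, inv_mul_cancel_left, smul_mul', hMa, hMa, ← mul_smul, mul_assoc]
      rw [Finset.sum_congr rfl fun g _ => h2 g, ← Finset.smul_sum, ← Matrix.mul_apply, hBM, Matrix.one_apply]
      split_ifs <;> simp
    have h2 : B' = M⁻¹ := by
      calc B' = B' * (M * M⁻¹) := by rw [hMB, mul_one]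
        _ = (B' * M) * M⁻¹ := by rw [mul_assoc]
        _ = M⁻¹ := by rw [h1, one_mul]
    intro h g
    have h3 : B' h (g0 * g) = M⁻¹ h (g0 * g) := by rw [h2]
    rw [← h3, hB', Matrix.of_apply, inv_mul_cancel_left]
  refine ⟨le_top, fun u hu hsum => ?_, fun v _ => ?_⟩
  · choose w hw hwu using fun h => Submodule.mem_map.1 (hu h)
    have h1 : ∀ g h, π (M g h) (w h) = ρ g (ρ h (u h)) := by
      intro g h
      rw [← hwu, hπ, hπ, hMa, mul_smul, (Representation.mem_invariants ρ _).1 (hw h) h,
        (Representation.mem_invariants ρ _).1 (hw h) g]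
    have h2 : ∀ g, ∑ h, π (M g h) (w h) = 0 := by
      intro g
      rw [Finset.sum_congr rfl fun h _ => h1 g h, ← map_sum, hsum, map_zero]
    intro h'
    have h3 : w h' = 0 := by
      have h4 : ∑ g, π (M⁻¹ h' g) (∑ h, π (M g h) (w h)) = w h' := by
        simp_rw [map_sum, ← Module.End.mul_apply, ← map_mul]
        rw [Finset.sum_comm]
        simp_rw [← LinearMap.sum_apply, ← map_sum, ← Matrix.mul_apply, hBM, Matrix.one_apply]
        rw [Finset.sum_eq_single h']
        · simp
        · intro b _ hb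
          simp [Ne.symm hb]
        · intro h; exact absurd (Finset.mem_univ _) h
      rw [← h4]
      simp_rw [h2, map_zero]
      simp
    rw [← hwu, h3, map_zero]
  · -- spanning
    set w : H → V := fun h => ∑ g, π (M⁻¹ h g) (ρ g v) with hw
    have hwinv : ∀ h, w h ∈ Representation.invariants ρ := by
      intro h
      rw [Representation.mem_invariants]
      intro g0
      rw [hw]
      simp only [map_sum]
      rw [← Equiv.sum_comp (Equiv.mulLeft g0) (fun g => π (M⁻¹ h g) (ρ g v))]
      apply Finset.sum_congr rfl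
      intro g _
      rw [hπ, hB, Equiv.coe_mulLeft, map_mul, Module.End.mul_apply]
    refine ⟨fun h => π c (w h), fun h => ⟨w h, hwinv h, rfl⟩, ?_⟩
    have h1 : ∀ h, ρ h (π c (w h)) = π (M 1 h) (w h) := by
      intro h
      rw [hπ, (Representation.mem_invariants ρ _).1 (hwinv h) h, hMa, one_mul]
    have h3 : ∀ h, π (M 1 h) (w h) = ∑ g, (π (M 1 h * M⁻¹ h g)) (ρ g v) := by
      intro h
      rw [hw]
      simp only [map_sum, map_mul, Module.End.mul_apply]
    rw [Finset.sum_congr rfl fun h _ => (h1 h).trans (h3 h)]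
    rw [Finset.sum_comm]
    have h2 : ∀ g : H, ∑ h, (π (M 1 h * M⁻¹ h g)) ((ρ g) v) = if g = 1 then v else 0 := by
      intro g
      rw [← LinearMap.sum_apply, ← map_sum, ← Matrix.mul_apply, hMB, Matrix.one_apply]
      by_cases hg : g = 1
      · subst hg; simp
      · simp [hg, Ne.symm hg]
    rw [Finset.sum_congr rfl fun g _ => h2 g]
    simp

end descent

end Cfsg.Agent.Lib.FrobFree
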