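import Cfsg.Agent.Lib.FrobFree3

/-!
# The case of an abelian kernel (helper11)
-/

set_option autoImplicit false
set_option linter.deprecated false

namespace Cfsg.Agent.Lib.FrobFree

variable {k V A : Type*} [Field k] [AddCommGroup V] [Module k V] [FiniteDimensional k V] [Group A] [Finite A]

/-- the restriction of a representation to a subgroup -/
abbrev res (ρ : Representation k A V) (H : Subgroup A) : Representation k H V := ρ.comp H.subtype

theorem abelian_case (ρ : Representation k A V) (E H : Subgroup A) [Fintype H]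
    (hEc : ∀ x ∈ E, ∀ y ∈ E, x * y = y * x) (hHE : ∀ h ∈ H, ∀ x ∈ E, h * x * h⁻¹ ∈ E)
    (hfpf : ∀ h ∈ H, h ≠ 1 → ∀ x ∈ E, h * x * h⁻¹ = x → x = 1) (hE : (Nat.card E : k) ≠ 0)
    (hfix : ∀ v : V, (∀ x ∈ E, ρ x v = v) → v = 0) : ∃ W : Submodule k V, FreeOn (res ρ H) ⊤ W := by
  classical
  have : Fintype E := Fintype.ofFinite E
  set s : Set (Module.End k V) := Set.range fun x : E => ρ (x : A) with hs
  have hcomm : ∀ a ∈ s, ∀ b ∈ s, a * b = b * a := by
    rintro _ ⟨x, rfl⟩ _ ⟨y, rfl⟩
    change ρ (x : A) * ρ (y : A) = ρ (y : A) * ρ (x : A)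
    rw [← map_mul, ← map_mul, hEc x x.2 y y.2]
  let S : Subalgebra k (Module.End k V) := Algebra.adjoin k s
  let _ : CommRing S := Algebra.adjoinCommRingOfComm k hcomm
  have hconj : ∀ (h : H) (T : Module.End k V), T ∈ S → ρ (h : A) * T * ρ ((h : A)⁻¹) ∈ S := by
    intro h T hT
    induction hT using Algebra.adjoin_induction with
    | mem x hx =>
      obtain ⟨x, rfl⟩ := hx
      change ρ (h : A) * ρ (x : A) * ρ ((h : A)⁻¹) ∈ S
      rw [← map_mul, ← map_mul]
      exact Algebra.subset_adjoin ⟨⟨_, hHE h h.2 x x.2⟩, rfl⟩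
    | algebraMap r =>
      rw [← Algebra.commutes r, mul_assoc, ← map_mul, mul_inv_cancel, map_one, mul_one]
      exact S.algebraMap_mem r
    | add x y _ _ hx hy =>
      rw [mul_add, add_mul]
      exact S.add_mem hx hy
    | mul x y _ _ hx hy =>
      have h1 : ρ (h : A) * (x * y) * ρ ((h : A)⁻¹) =
          (ρ (h : A) * x * ρ ((h : A)⁻¹)) * (ρ (h : A) * y * ρ ((h : A)⁻¹)) := by
        have h2 : ρ ((h : A)⁻¹) * ρ (h : A) = 1 := by rw [← map_mul, inv_mul_cancel, map_one]
        calc ρ (h : A) * (x * y) * ρ ((h : A)⁻¹) = ρ (h : A) * x * 1 * y * ρ ((h : A)⁻¹) := by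
              simp only [mul_one, mul_assoc]
          _ = _ := by rw [← h2]; simp only [mul_assoc]
      rw [h1]
      exact S.mul_mem hx hy
  let act : MulSemiringAction H S :=
    { smul := fun h T => ⟨ρ (h : A) * (T : Module.End k V) * ρ ((h : A)⁻¹), hconj h T T.2⟩
      one_smul := by
        intro T
        apply Subtype.ext
        change ρ ((1 : H) : A) * (T : Module.End k V) * ρ (((1 : H) : A)⁻¹) = T
        simp
      mul_smul := by
        intro a b T
        apply Subtype.ext
        change ρ ((a * b : H) : A) * (T : Module.End k V) * ρ (((a * b : H) : A)⁻¹) =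
          ρ (a : A) * (ρ (b : A) * (T : Module.End k V) * ρ ((b : A)⁻¹)) * ρ ((a : A)⁻¹)
        rw [Subgroup.coe_mul, mul_inv_rev, map_mul, map_mul]
        simp only [mul_assoc]
      smul_zero := by
        intro a
        apply Subtype.ext
        change ρ (a : A) * (0 : Module.End k V) * ρ ((a : A)⁻¹) = 0
        simp
      smul_add := by
        intro a x y
        apply Subtype.ext
        change ρ (a : A) * ((x : Module.End k V) + y) * ρ ((a : A)⁻¹) =
          ρ (a : A) * (x : Module.End k V) * ρ ((a : A)⁻¹) + ρ (a : A) * (y : Module.End k V) * ρ ((a : A)⁻¹)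
        rw [mul_add, add_mul]
      smul_one := by
        intro a
        apply Subtype.ext
        change ρ (a : A) * (1 : Module.End k V) * ρ ((a : A)⁻¹) = 1
        rw [mul_one, ← map_mul, mul_inv_cancel, map_one]
      smul_mul := by
        intro a x y
        apply Subtype.ext
        change ρ (a : A) * ((x : Module.End k V) * y) * ρ ((a : A)⁻¹) =
          (ρ (a : A) * (x : Module.End k V) * ρ ((a : A)⁻¹)) * (ρ (a : A) * (y : Module.End k V) * ρ ((a : A)⁻¹))
        have h2 : ρ ((a : A)⁻¹) * ρ (a : A) = 1 := by rw [← map_mul, inv_mul_cancel, map_one]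
        calc ρ (a : A) * ((x : Module.End k V) * y) * ρ ((a : A)⁻¹) =
              ρ (a : A) * (x : Module.End k V) * 1 * y * ρ ((a : A)⁻¹) := by simp only [mul_one, mul_assoc]
          _ = _ := by rw [← h2]; simp only [mul_assoc] }
  have hsmul : ∀ (h : H) (T : S), ((h • T : S) : Module.End k V) = ρ (h : A) * (T : Module.End k V) * ρ ((h : A)⁻¹) :=
    fun h T => rfl
  have hfin : Module.Finite k S := inferInstance
  have hart : IsArtinianRing S := IsArtinianRing.of_finite k S
  have hmax : Finite (MaximalSpectrum S) := inferInstance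
  -- the elements of `E` in `S`
  let e : E → S := fun x => ⟨ρ (x : A), Algebra.subset_adjoin ⟨x, rfl⟩⟩
  have hemul : ∀ x y : E, e (x * y) = e x * e y := by
    intro x y
    apply Subtype.ext
    change ρ ((x * y : E) : A) = ρ (x : A) * ρ (y : A)
    rw [Subgroup.coe_mul, map_mul]
  have heone : e 1 = 1 := by
    apply Subtype.ext
    change ρ ((1 : E) : A) = 1
    rw [Subgroup.coe_one, map_one]
  have hesum : ∑ x : E, e x = 0 := by
    apply Subtype.ext
    have h1 : ((∑ x : E, e x : S) : Module.End k V) = ∑ x : E, ρ (x : A) := by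
      rw [← Subalgebra.coe_val, map_sum]
      rfl
    rw [h1]
    ext v
    apply hfix
    intro y hy
    rw [LinearMap.sum_apply, map_sum]
    rw [← Equiv.sum_comp (Equiv.mulLeft (⟨y, hy⟩ : E)) (fun x : E => ρ (x : A) v)]
    apply Finset.sum_congr rfl
    intro x _
    rw [Equiv.coe_mulLeft, Subgroup.coe_mul, map_mul]
    rfl
  have faith : ∀ 𝔪 : Ideal S, 𝔪.IsMaximal → ∀ h : H, h ≠ 1 → ∃ s : S, h • s - s ∉ 𝔪 := by
    intro 𝔪 hm h hh
    by_contra hcon
    push Not at hcon
    have hh' : (h : A) ≠ 1 := fun h' => hh (Subtype.ext h')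
    -- all of `E` is congruent to `1`
    let f : E → E := fun x => ⟨h * x * (h : A)⁻¹ * (x : A)⁻¹, E.mul_mem (hHE h h.2 x x.2) (E.inv_mem x.2)⟩
    have hf : Function.Injective f := by
      intro x y hxy
      have h1 : (h : A) * x * (h : A)⁻¹ * (x : A)⁻¹ = h * y * (h : A)⁻¹ * (y : A)⁻¹ := congrArg Subtype.val hxy
      have h2 : (h : A) * ((y : A)⁻¹ * x) * (h : A)⁻¹ = (y : A)⁻¹ * x := by
        have h3 : (h : A) * x * (h : A)⁻¹ = h * y * (h : A)⁻¹ * (y : A)⁻¹ * x := by rw [← h1]; group
        have h4 : (h : A) * y * (h : A)⁻¹ * ((y : A)⁻¹ * x) = ((y : A)⁻¹ * x) * (h * y * (h : A)⁻¹) :=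
          hEc _ (hHE h h.2 y y.2) _ (E.mul_mem (E.inv_mem y.2) x.2)
        calc (h : A) * ((y : A)⁻¹ * (x : A)) * (h : A)⁻¹ =
              ((h : A) * (y : A) * (h : A)⁻¹)⁻¹ * ((h : A) * (x : A) * (h : A)⁻¹) := by group
          _ = ((h : A) * (y : A) * (h : A)⁻¹)⁻¹ * ((h : A) * (y : A) * (h : A)⁻¹ * (y : A)⁻¹ * (x : A)) := by rw [h3]
          _ = (y : A)⁻¹ * x := by group
      have h5 := hfpf h h.2 hh' _ (E.mul_mem (E.inv_mem y.2) x.2) h2
      apply Subtype.ext
      rw [inv_mul_eq_one] at h5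
      exact h5.symm
    have hfs : Function.Surjective f := Finite.surjective_of_injective hf
    have h1 : ∀ y : E, e y - 1 ∈ 𝔪 := by
      intro y
      obtain ⟨x, rfl⟩ := hfs y
      have h2 := 𝔪.mul_mem_right (e x⁻¹) (hcon (e x))
      have h3 : (h • e x - e x) * e x⁻¹ = e (f x) - 1 := by
        rw [sub_mul, ← hemul, mul_inv_cancel, heone]
        congr 1
        apply Subtype.ext
        change ρ (h : A) * ρ (x : A) * ρ ((h : A)⁻¹) * ρ ((x⁻¹ : E) : A) = ρ (f x : A)
        rw [← map_mul, ← map_mul, ← map_mul]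
        rfl
      rw [h3] at h2
      exact h2
    have h2 : ∑ y : E, (e y - 1) ∈ 𝔪 := Ideal.sum_mem _ fun y _ => h1 y
    rw [Finset.sum_sub_distrib, hesum, zero_sub, Finset.sum_const, Finset.card_univ, nsmul_one,
      neg_mem_iff] at h2
    have h3 : ((Fintype.card E : ℕ) : S) = algebraMap k S (Nat.card E : k) := by
      rw [map_natCast, Nat.card_eq_fintype_card]
    rw [h3] at h2
    have h4 : IsUnit (algebraMap k S (Nat.card E : k)) := (IsUnit.mk0 _ hE).map _
    exact hm.ne_top (Ideal.eq_top_of_isUnit_mem _ h2 h4)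
  obtain ⟨c, hc⟩ := exists_unit_det faith
  refine ⟨_, descent (res ρ H) (S.val.toRingHom) ?_ c hc⟩
  intro h r v
  change ρ (h : A) ((r : Module.End k V) v) = (ρ (h : A) * (r : Module.End k V) * ρ ((h : A)⁻¹)) (ρ (h : A) v)
  have h2 : ρ ((h : A)⁻¹) (ρ (h : A) v) = v := by
    rw [← Module.End.mul_apply, ← map_mul, inv_mul_cancel, map_one, Module.End.one_apply]
  rw [Module.End.mul_apply, Module.End.mul_apply, h2]

end Cfsg.Agent.Lib.FrobFree
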