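import Cfsg.Agent.Lib.FrobFree4
import Cfsg.Prelude.Def_Solvable

/-!
# Modules for groups with a nilpotent kernel on which the complement acts freely (helper11)
-/

set_option autoImplicit false
set_option linter.unusedSectionVars false

namespace Cfsg.Agent.Lib.FrobFree

universe u v w

section fix

/-- a `p`-group acting additively on an elementary abelian group `≠ 0` has a nonzero fixed point (helper code of
`Lib.CoverUp`, repeated to keep the imports small) -/
theorem exists_fixed_vec {p : ℕ} [hp : Fact p.Prime] {P : Type*} [Group P] [Finite P]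
    (hP : IsPGroup p P) {V : Type*} [AddCommGroup V] (hV : ∀ v : V, p • v = 0) (f : P → V →+ V)
    (hf : ∀ (g h : P) (v : V), f (g * h) v = f g (f h v)) {v0 : V} (h1 : f 1 v0 = v0)
    (h0 : v0 ≠ 0) : ∃ v ≠ 0, ∀ g, f g v = v := by
  classical
  set W := AddSubgroup.closure (Set.range fun g => f g v0) with hW
  have hstab : ∀ g, ∀ w ∈ W, f g w ∈ W := by
    intro g w hw
    have h2 : W ≤ W.comap (f g) := by
      rw [hW, AddSubgroup.closure_le]
      rintro _ ⟨h, rfl⟩
      show f g (f h v0) ∈ W
      rw [← hf]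
      exact AddSubgroup.subset_closure ⟨g * h, rfl⟩
    exact h2 hw
  have hone : ∀ w ∈ W, f 1 w = w := by
    intro w hw
    have h2 : W ≤ (f 1 - AddMonoidHom.id V).ker := by
      rw [hW, AddSubgroup.closure_le]
      rintro _ ⟨h, rfl⟩
      show (f 1 - AddMonoidHom.id V) (f h v0) = 0
      rw [AddMonoidHom.sub_apply, ← hf, one_mul, AddMonoidHom.id_apply, sub_self]
    have h3 : (f 1 - AddMonoidHom.id V) w = 0 := h2 hw
    rw [AddMonoidHom.sub_apply, AddMonoidHom.id_apply, sub_eq_zero] at h3
    exact h3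
  have hfin : Finite W := by
    have hfg : AddGroup.FG W := by
      rw [AddGroup.fg_iff_addSubgroup_fg]
      exact ⟨(Set.finite_range fun g => f g v0).toFinset, by rw [Set.Finite.coe_toFinset]⟩
    refine AddCommGroup.finite_of_fg_isAddTorsion W ?_
    intro w
    rw [isOfFinAddOrder_iff_nsmul_eq_zero]
    exact ⟨p, hp.out.pos, Subtype.ext (hV w)⟩
  let act : MulAction P W :=
    { smul := fun g w => ⟨f g w, hstab g w w.2⟩
      one_smul := fun w => Subtype.ext (hone w w.2)
      mul_smul := fun g h w => Subtype.ext (hf g h w) }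
  have hv0 : v0 ∈ W := by
    have : f 1 v0 ∈ W := AddSubgroup.subset_closure ⟨1, rfl⟩
    rwa [h1] at this
  have hdvd : p ∣ Nat.card W := by
    have h2 : addOrderOf (⟨v0, hv0⟩ : W) = p := by
      refine addOrderOf_eq_prime (Subtype.ext (hV v0)) ?_
      intro h
      exact h0 (congrArg Subtype.val h)
    rw [← h2]
    exact addOrderOf_dvd_natCard _
  have h0W : (0 : W) ∈ MulAction.fixedPoints P W := by
    intro g
    exact Subtype.ext (map_zero (f g))
  obtain ⟨w, hw, hw0⟩ := hP.exists_fixed_point_of_prime_dvd_card_of_fixed_point W hdvd h0W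
  exact ⟨w, fun h => hw0 (Subtype.ext h.symm), fun g => congrArg Subtype.val (hw g)⟩

end fix

section transfer

variable {k V H H' : Type*} [Field k] [AddCommGroup V] [Module k V] [Group H] [Fintype H] [Group H'] [Fintype H']

theorem FreeOn.congr {σ : Representation k H V} {τ : Representation k H' V} (e : H ≃ H')
    (he : ∀ h, σ h = τ (e h)) {U W : Submodule k V} (F : FreeOn τ U W) : FreeOn σ U W := by
  refine ⟨F.le, fun u hu hsum h => ?_, fun v hv => ?_⟩
  · have h1 := F.indep (fun h' => u (e.symm h')) (fun h' => hu _) (by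
      rw [← hsum, ← Equiv.sum_comp e]
      apply Finset.sum_congr rfl
      intro h _
      rw [he, Equiv.symm_apply_apply]) (e h)
    rwa [Equiv.symm_apply_apply] at h1
  · obtain ⟨u, hu, huv⟩ := F.span v hv
    refine ⟨fun h => u (e h), fun h => hu _, ?_⟩
    rw [← huv, ← Equiv.sum_comp e]
    apply Finset.sum_congr rfl
    intro h _
    rw [he]

end transfer

section sub

variable {k : Type w} {V : Type v} {A : Type u} [Field k] [AddCommGroup V] [Module k V] [Group A]

/-- the subrepresentation on an invariant submodule -/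
def subrep (ρ : Representation k A V) (U : Submodule k V) (hU : ∀ a, ∀ v ∈ U, ρ a v ∈ U) : Representation k A U where
  toFun a := (ρ a).restrict (hU a)
  map_one' := by
    ext v
    simp [LinearMap.restrict_apply]
  map_mul' a b := by
    ext v
    simp [LinearMap.restrict_apply]

theorem subrep_apply (ρ : Representation k A V) (U : Submodule k V) (hU : ∀ a, ∀ v ∈ U, ρ a v ∈ U) (a : A) (v : U) :
    ((subrep ρ U hU a v : U) : V) = ρ a v := rfl

/-- the fixed points of a subgroup -/
def fixE (ρ : Representation k A V) (E : Subgroup A) : Submodule k V where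
  carrier := {v | ∀ x ∈ E, ρ x v = v}
  zero_mem' := fun x _ => map_zero _
  add_mem' := fun {a b} ha hb x hx => by rw [map_add, ha x hx, hb x hx]
  smul_mem' := fun c {a} ha x hx => by rw [map_smul, ha x hx]

theorem mem_fixE {ρ : Representation k A V} {E : Subgroup A} {v : V} : v ∈ fixE ρ E ↔ ∀ x ∈ E, ρ x v = v := Iff.rfl

theorem fixE_inv (ρ : Representation k A V) (E : Subgroup A) [hE : E.Normal] (a : A) (v : V) (hv : v ∈ fixE ρ E) :
    ρ a v ∈ fixE ρ E := by
  rw [mem_fixE] at hv ⊢
  intro x hx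
  have h1 := hv (a⁻¹ * x * a) (by
    have := hE.conj_mem x hx a⁻¹
    rwa [inv_inv] at this)
  have h2 : ρ x (ρ a v) = ρ a (ρ (a⁻¹ * x * a) v) := by
    rw [← Module.End.mul_apply, ← map_mul, ← Module.End.mul_apply, ← map_mul]
    congr 2
    group
  rw [h2, h1]

variable [Finite A]

/-- the sum over a subgroup -/
noncomputable def sumE (ρ : Representation k A V) (E : Subgroup A) [Fintype E] : V →ₗ[k] V := ∑ x : E, ρ (x : A)

theorem sumE_mem (ρ : Representation k A V) (E : Subgroup A) [Fintype E] (v : V) : sumE ρ E v ∈ fixE ρ E := by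
  rw [mem_fixE]
  intro y hy
  unfold sumE
  rw [LinearMap.sum_apply, map_sum]
  rw [← Equiv.sum_comp (Equiv.mulLeft (⟨y, hy⟩ : E)) (fun x : E => ρ (x : A) v)]
  apply Finset.sum_congr rfl
  intro x _
  rw [Equiv.coe_mulLeft, Subgroup.coe_mul, map_mul]
  rfl

theorem sumE_fix (ρ : Representation k A V) (E : Subgroup A) [Fintype E] (v : V) (hv : v ∈ fixE ρ E) :
    sumE ρ E v = (Nat.card E : k) • v := by
  unfold sumE
  rw [LinearMap.sum_apply, Finset.sum_congr rfl fun (x : E) _ => hv (x : A) x.2, Finset.sum_const, Finset.card_univ,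
    Nat.card_eq_fintype_card, Nat.cast_smul_eq_nsmul]

theorem sumE_inv (ρ : Representation k A V) (E : Subgroup A) [hE : E.Normal] [Fintype E] (a : A) (v : V) :
    sumE ρ E (ρ a v) = ρ a (sumE ρ E v) := by
  unfold sumE
  rw [LinearMap.sum_apply, LinearMap.sum_apply, map_sum]
  have h1 : ∀ x : E, a * x * a⁻¹ ∈ E := fun x => hE.conj_mem x x.2 a
  let e : E ≃ E := (MulAut.conjNormal a : MulAut E).toEquiv
  have he : ∀ x : E, ((e x : E) : A) = a * x * a⁻¹ := fun x => rfl
  rw [← Equiv.sum_comp e]
  apply Finset.sum_congr rfl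
  intro x _
  rw [he, ← Module.End.mul_apply, ← map_mul, ← Module.End.mul_apply, ← map_mul]
  congr 2
  group

end sub

theorem main (k : Type w) [Field k] (n : ℕ) : ∀ (A : Type u) [Group A] [Finite A] (F H : Subgroup A) [F.Normal]
    [Group.IsNilpotent F] (V : Type v) [AddCommGroup V] [Module k V] [FiniteDimensional k V] [Fintype H]
    (ρ : Representation k A V), Nat.card F = n →
    (∀ h ∈ H, h ≠ 1 → ∀ x ∈ F, h * x * h⁻¹ = x → x = 1) → (∀ v : V, (∀ x ∈ F, ρ x v = v) → v = 0) →
    ∃ W : Submodule k V, FreeOn (res ρ H) ⊤ W := by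
  classical
  induction n using Nat.strong_induction_on with
  | _ n ih =>
  intro A _ _ F H _ _ V _ _ _ _ ρ hn hfpf hfix
  by_cases hV : ∀ v : V, v = 0
  · refine ⟨⊥, ?_⟩
    have h1 : (⊤ : Submodule k V) = ⊥ := by
      rw [eq_bot_iff]
      intro v _
      rw [Submodule.mem_bot]
      exact hV v
    rw [h1]
    exact FreeOn.bot _
  push Not at hV
  obtain ⟨v0, hv0⟩ := hV
  -- a prime
  have hr : ∃ r : ℕ, r.Prime ∧ r ∣ Nat.card F ∧ (r : k) ≠ 0 := by
    by_contra hcon
    push Not at hcon
    by_cases h1 : Nat.card F = 1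
    · apply hv0
      apply hfix
      intro x hx
      have h2 : F = ⊥ := Subgroup.eq_bot_of_card_eq F h1
      rw [h2, Subgroup.mem_bot] at hx
      rw [hx, map_one]; rfl
    · obtain ⟨p, hp, hpF⟩ := Nat.exists_prime_and_dvd h1
      have hp0 := hcon p hp hpF
      have : Fact p.Prime := ⟨hp⟩
      have hchar : CharP k p := by
        have h2 := CharP.cast_eq_zero_iff k (ringChar k) p
        rw [h2] at hp0
        have h3 : ringChar k = 1 ∨ ringChar k = p := (Nat.dvd_prime hp).1 hp0
        rcases h3 with h3 | h3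
        · exact absurd h3 (CharP.ringChar_ne_one)
        · rw [← h3]; exact ringChar.charP k
      have hFp : IsPGroup p F := by
        apply IsPGroup.of_card (n := (Nat.card F).primeFactorsList.length)
        have h3 : ∀ q : ℕ, q.Prime → q ∣ Nat.card F → q = p := by
          intro q hq hqF
          have h4 := hcon q hq hqF
          rw [CharP.cast_eq_zero_iff k p] at h4
          exact ((Nat.prime_dvd_prime_iff_eq hp hq).1 h4).symm
        exact Nat.eq_prime_pow_of_unique_prime_dvd Nat.card_pos.ne' (fun {q} hq hqF => h3 q hq hqF)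
      obtain ⟨v, hv, hvf⟩ := exists_fixed_vec hFp (V := V) (fun v => by
        rw [← Nat.cast_smul_eq_nsmul k, CharP.cast_eq_zero, zero_smul])
        (fun g => (ρ (g : A)).toAddMonoidHom) (fun g h v => by
          change ρ ((g * h : F) : A) v = ρ (g : A) (ρ (h : A) v)
          rw [Subgroup.coe_mul, map_mul]; rfl) (v0 := v0) (by
          change ρ ((1 : F) : A) v0 = v0
          rw [Subgroup.coe_one, map_one]; rfl) hv0
      apply hv
      apply hfix
      intro x hx
      exact hvf ⟨x, hx⟩
  obtain ⟨r, hrp, hrF, hr0⟩ := hr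
  have : Fact r.Prime := ⟨hrp⟩
  -- the centre of the Sylow `r`-subgroup of `F`
  obtain ⟨R⟩ : Nonempty (Sylow r F) := inferInstance
  have hRn : (R : Subgroup F).Normal := inferInstance
  have hRc : (R : Subgroup F).Characteristic := Sylow.characteristic_of_normal R hRn
  set E0 : Subgroup F := (R : Subgroup F) ⊓ Subgroup.centralizer ((R : Subgroup F) : Set F) with hE0
  have hE0c : E0.Characteristic := inferInstance
  have hE0p : IsPGroup r E0 := R.2.to_le inf_le_left
  have hE0bot : E0 ≠ ⊥ := by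
    have h1 : (R : Subgroup F) ≠ ⊥ := R.ne_bot_of_dvd_card hrF
    have h2 : Nontrivial (R : Subgroup F) := (Subgroup.nontrivial_iff_ne_bot _).2 h1
    have h3 := R.2.center_nontrivial
    obtain ⟨z, hz⟩ := exists_ne (1 : Subgroup.center (R : Subgroup F))
    intro h4
    apply hz
    apply Subtype.ext
    apply Subtype.ext
    have h5 : ((z : (R : Subgroup F)) : F) ∈ E0 := by
      refine Subgroup.mem_inf.2 ⟨(z : (R : Subgroup F)).2, ?_⟩
      rw [Subgroup.mem_centralizer_iff]
      intro y hy
      have h6 := Subgroup.mem_center_iff.1 z.2 ⟨y, hy⟩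
      exact congrArg Subtype.val h6
    rw [h4, Subgroup.mem_bot] at h5
    exact h5
  set E : Subgroup A := E0.map F.subtype with hE
  have hEn : E.Normal := inferInstance
  have hEF : E ≤ F := Subgroup.map_subtype_le _
  have hEcard : Nat.card E = Nat.card E0 := Subgroup.card_map_of_injective F.subtype_injective
  have hEk : (Nat.card E : k) ≠ 0 := by
    obtain ⟨m, hm⟩ := IsPGroup.iff_card.1 hE0p
    rw [hEcard, hm, Nat.cast_pow]
    exact pow_ne_zero _ hr0
  have hEgt : 1 < Nat.card E := by
    rw [hEcard]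
    have h1 : Nat.card E0 ≠ 1 := fun h => hE0bot (Subgroup.eq_bot_of_card_eq _ h)
    have h2 : 0 < Nat.card E0 := Nat.card_pos
    omega
  have hEc : ∀ x ∈ E, ∀ y ∈ E, x * y = y * x := by
    rintro _ ⟨x, hx, rfl⟩ _ ⟨y, hy, rfl⟩
    rw [← map_mul, ← map_mul]
    congr 1
    exact (Subgroup.mem_centralizer_iff.1 hx.2 y hy.1).symm
  have : Fintype E := Fintype.ofFinite E
  -- the decomposition
  set U₁ := fixE ρ E with hU₁
  set U₂ := LinearMap.ker (sumE ρ E) with hU₂
  have hU₁inv : ∀ a, ∀ v ∈ U₁, ρ a v ∈ U₁ := fun a v hv => fixE_inv ρ E a v hv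
  have hU₂inv : ∀ a, ∀ v ∈ U₂, ρ a v ∈ U₂ := by
    intro a v hv
    rw [hU₂, LinearMap.mem_ker] at hv ⊢
    rw [sumE_inv, hv, map_zero]
  have hdisj : Disjoint U₁ U₂ := by
    rw [Submodule.disjoint_def]
    intro v hv1 hv2
    rw [hU₂, LinearMap.mem_ker, sumE_fix ρ E v hv1] at hv2
    exact (smul_eq_zero.1 hv2).resolve_left hEk
  have hsup : U₁ ⊔ U₂ = ⊤ := by
    rw [eq_top_iff]
    intro v _
    rw [Submodule.mem_sup]
    refine ⟨(Nat.card E : k)⁻¹ • sumE ρ E v, Submodule.smul_mem _ _ (sumE_mem ρ E v),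
      v - (Nat.card E : k)⁻¹ • sumE ρ E v, ?_, by abel⟩
    rw [hU₂, LinearMap.mem_ker, map_sub, map_smul, sumE_fix ρ E _ (sumE_mem ρ E v), smul_smul,
      inv_mul_cancel₀ hEk, one_smul, sub_self]
  -- the part without fixed points
  have h2 : ∃ W₂ : Submodule k V, FreeOn (res ρ H) U₂ W₂ := by
    obtain ⟨W, hW⟩ := abelian_case (subrep ρ U₂ hU₂inv) E H hEc
      (fun h _ x hx => hEn.conj_mem x hx h) (fun h hh hh1 x hx => hfpf h hh hh1 x (hEF hx)) hEk (by
        intro v hv
        apply Subtype.ext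
        apply Submodule.disjoint_def.1 hdisj _ _ v.2
        rw [hU₁, mem_fixE]
        intro x hx
        exact congrArg Subtype.val (hv x hx))
    exact ⟨_, FreeOn.map_subtype (fun h u => rfl) hW⟩
  -- the fixed points
  have h1 : ∃ W₁ : Submodule k V, FreeOn (res ρ H) U₁ W₁ := by
    have hker : ∀ x ∈ E, subrep ρ U₁ hU₁inv x = 1 := by
      intro x hx
      ext v
      exact v.2 x hx
    let ρ' : Representation k (A ⧸ E) U₁ := QuotientGroup.lift E (subrep ρ U₁ hU₁inv) hker
    have hρ' : ∀ a : A, ρ' (QuotientGroup.mk' E a) = subrep ρ U₁ hU₁inv a := fun a => rfl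
    set F' := F.map (QuotientGroup.mk' E) with hF'
    set H' := H.map (QuotientGroup.mk' E) with hH'
    have hF'n : F'.Normal := Subgroup.Normal.map inferInstance _ (QuotientGroup.mk'_surjective E)
    have hF'nil : Group.IsNilpotent F' :=
      Group.nilpotent_of_surjective ((QuotientGroup.mk' E).subgroupMap F) ((QuotientGroup.mk' E).subgroupMap_surjective F)
    have : Fintype H' := Fintype.ofFinite H'
    have hcard : Nat.card F' < n := by
      have h3 : Nat.card F' * Nat.card E = Nat.card F := by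
        have h4 := Subgroup.relIndex_ker (K := F) (QuotientGroup.mk' E)
        rw [QuotientGroup.ker_mk'] at h4
        rw [← h4, Subgroup.relIndex, mul_comm, ← Nat.card_congr (Subgroup.subgroupOfEquivOfLe hEF).toEquiv]
        exact Subgroup.card_mul_index _
      rw [← hn, ← h3]
      have h4 : 0 < Nat.card F' := Nat.card_pos
      exact lt_mul_of_one_lt_right h4 hEgt
    have hinj : ∀ h ∈ H, h ∈ E → h = 1 := by
      intro h hh hhE
      by_contra hne
      exact hne (hfpf h hh hne h (hEF hhE) (by group))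
    obtain ⟨W, hW⟩ := ih _ hcard (A ⧸ E) F' H' U₁ ρ' rfl (by
      rintro _ ⟨h, hh, rfl⟩ hne _ ⟨x, hx, rfl⟩ heq
      have hh1 : h ≠ 1 := by
        rintro rfl
        exact hne (map_one _)
      rw [← map_inv, ← map_mul, ← map_mul] at heq
      have h3 : x⁻¹ * (h * x * h⁻¹) ∈ E := QuotientGroup.eq.1 heq.symm
      -- surjectivity of `y ↦ y⁻¹ * (h * y * h⁻¹)` on `E`
      let f : E → E := fun y => ⟨(y : A)⁻¹ * (h * y * h⁻¹), E.mul_mem (E.inv_mem y.2) (hEn.conj_mem y y.2 h)⟩
      have key : ∀ y z : A, y ∈ F → z ∈ F → y⁻¹ * (h * y * h⁻¹) = z⁻¹ * (h * z * h⁻¹) → y = z := by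
        intro y z hy hz hyz
        have h4 : h * (z * y⁻¹) * h⁻¹ = z * y⁻¹ := by
          have h5 : z * y⁻¹ * (h * y * h⁻¹) = h * z * h⁻¹ := by
            rw [mul_assoc, hyz]; group
          calc h * (z * y⁻¹) * h⁻¹ = (h * z * h⁻¹) * (h * y * h⁻¹)⁻¹ := by group
            _ = (z * y⁻¹ * (h * y * h⁻¹)) * (h * y * h⁻¹)⁻¹ := by rw [h5]
            _ = z * y⁻¹ := by group
        have h5 := hfpf h hh hh1 _ (F.mul_mem hz (F.inv_mem hy)) h4
        rw [mul_inv_eq_one] at h5
        exact h5.symm
      have hfi : Function.Injective f := by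
        intro y z hyz
        exact Subtype.ext (key y z (hEF y.2) (hEF z.2) (congrArg Subtype.val hyz))
      obtain ⟨y, hy⟩ := (Finite.surjective_of_injective hfi) ⟨_, h3⟩
      have h4 := key y x (hEF y.2) hx (congrArg Subtype.val hy)
      apply (QuotientGroup.eq_one_iff _).2
      rw [← h4]
      exact y.2) (by
      intro v hv
      apply Subtype.ext
      apply hfix
      intro x hx
      exact congrArg Subtype.val (hv _ ⟨x, hx, rfl⟩))
    -- transfer
    let e : H ≃ H' := Equiv.ofBijective ((QuotientGroup.mk' E).subgroupMap H) ⟨by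
      rw [injective_iff_map_eq_one]
      intro h hh
      apply Subtype.ext
      apply hinj h h.2
      exact (QuotientGroup.eq_one_iff _).1 (congrArg Subtype.val hh), (QuotientGroup.mk' E).subgroupMap_surjective H⟩
    have hW' : FreeOn (res (subrep ρ U₁ hU₁inv) H) ⊤ W := FreeOn.congr e (fun h => rfl) hW
    exact ⟨_, FreeOn.map_subtype (fun h u => rfl) hW'⟩
  obtain ⟨W₁, hW₁⟩ := h1
  obtain ⟨W₂, hW₂⟩ := h2
  refine ⟨W₁ ⊔ W₂, ?_⟩
  rw [← hsup]
  exact FreeOn.sup hdisj (fun h v hv => hU₁inv h v hv) (fun h v hv => hU₂inv h v hv) hW₁ hW₂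

end Cfsg.Agent.Lib.FrobFree
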