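import Cfsg.Agent.Lib.FrobCType
import Cfsg.Agent.Lib.FrobAction2
import Cfsg.Agent.Lib.FrobThm
import Cfsg.Agent.Lib.SubgroupTools

set_option autoImplicit false

/-!
Groups with the order type of a Frobenius group with nilpotent kernel.
-/

namespace Cfsg.Agent.Lib.FrobOrderType

open Subgroup Cfsg Cfsg.Agent.Lib.OrderType

universe u v

theorem sylow_normal_of_le {G : Type u} [Group G] [Finite G] {N : Subgroup G} [hN : N.Normal]
    (hnil : Group.IsNilpotent N) {p : ℕ} [Fact p.Prime] (P : Sylow p G) (hP : (P : Subgroup G) ≤ N) :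
    (P : Subgroup G).Normal := by
  have hPn : ((P.subtype hP : Sylow p N) : Subgroup N).Normal :=
    Sylow.normal_of_normalizerCondition Group.normalizerCondition_of_isNilpotent _
  have hPc := (P.subtype hP : Sylow p N).characteristic_of_normal hPn
  have h1 : (((P.subtype hP : Sylow p N) : Subgroup N).map N.subtype).Normal := by
    have := hPc
    exact ConjAct.normal_of_characteristic_of_normal
  rwa [Sylow.coe_subtype, Subgroup.map_subgroupOf_eq_of_le hP] at h1

/-- the primes of `m` divide `k` -/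
def PrimesIn (k m : ℕ) : Prop := ∀ q : ℕ, q.Prime → q ∣ m → q ∣ k

theorem PrimesIn.coprime {k l m : ℕ} (h : PrimesIn k m) (hkl : k.Coprime l) : m.Coprime l := by
  rw [Nat.coprime_iff_gcd_eq_one]
  by_contra hne
  obtain ⟨q, hq, hqd⟩ := Nat.exists_prime_and_dvd hne
  have h1 := h q hq (hqd.trans (Nat.gcd_dvd_left _ _))
  exact hq.one_lt.ne' (Nat.eq_one_of_dvd_coprimes hkl h1 (hqd.trans (Nat.gcd_dvd_right _ _)))

theorem mem_iff_primesIn {G : Type u} [Group G] [Finite G] {N : Subgroup G} [N.Normal]
    (hc : (Nat.card N).Coprime N.index) (x : G) : x ∈ N ↔ PrimesIn (Nat.card N) (orderOf x) := by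
  constructor
  · intro hx q hq hd
    have h1 := orderOf_dvd_natCard (⟨x, hx⟩ : N)
    rw [Subgroup.orderOf_mk] at h1
    exact hd.trans h1
  · intro hx
    exact mem_of_coprime_index (hx.coprime hc)

/-- a normal Hall subgroup generated by normal Sylow subgroups -/
theorem exists_hall_of_sylow_normal {G : Type u} [Group G] [Finite G] {k l : ℕ} (hkl : Nat.card G = k * l)
    (hcop : k.Coprime l)
    (hS : ∀ p : ℕ, p.Prime → p ∣ k → ∀ P : Sylow p G, (P : Subgroup G).Normal) :
    ∃ N : Subgroup G, N.Normal ∧ Nat.card N = k := by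
  classical
  have hpos : 0 < Nat.card G := Nat.card_pos
  have hk0 : k ≠ 0 := by rintro rfl; simp at hkl; omega
  have hl0 : l ≠ 0 := by rintro rfl; simp at hkl; omega
  -- induction over finsets of primes
  have key : ∀ s : Finset ℕ, s ⊆ k.primeFactors →
      ∃ N : Subgroup G, N.Normal ∧ Nat.card N = ∏ p ∈ s, p ^ k.factorization p := by
    intro s
    induction s using Finset.induction_on with
    | empty => intro _; exact ⟨⊥, inferInstance, by simp⟩
    | insert p s hps ih =>
      intro hs
      obtain ⟨N, hN, hNc⟩ := ih ((Finset.subset_insert _ _).trans hs)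
      have hp := Nat.mem_primeFactors.1 (hs (Finset.mem_insert_self p s))
      have := Fact.mk hp.1
      obtain ⟨P⟩ : Nonempty (Sylow p G) := inferInstance
      have hPn := hS p hp.1 hp.2.1 P
      have hPc : Nat.card (P : Subgroup G) = p ^ k.factorization p := by
        rw [Sylow.card_eq_multiplicity, hkl, Nat.factorization_mul hk0 hl0, Finsupp.add_apply]
        have : l.factorization p = 0 := by
          apply Nat.factorization_eq_zero_of_not_dvd
          intro hd
          exact hp.1.one_lt.ne' (Nat.eq_one_of_dvd_coprimes hcop hp.2.1 hd)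
        rw [this, add_zero]
      refine ⟨(P : Subgroup G) ⊔ N, inferInstance, ?_⟩
      have hcop' : (Nat.card (P : Subgroup G)).Coprime (Nat.card N) := by
        rw [hPc, hNc]
        refine Nat.Coprime.pow_left _ (Nat.Coprime.prod_right ?_)
        intro q hq
        have hq' := Nat.mem_primeFactors.1 (hs (Finset.mem_insert_of_mem hq))
        refine Nat.Coprime.pow_right _ ((Nat.coprime_primes hp.1 hq'.1).2 ?_)
        rintro rfl; exact hps hq
      rw [Cfsg.Agent.Lib.SubgroupTools.card_sup_of_coprime (by rw [normalizer_eq_top]; exact le_top) hcop', hPc, hNc,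
        Finset.prod_insert hps]
  obtain ⟨N, hN, hNc⟩ := key _ (Finset.Subset.refl _)
  refine ⟨N, hN, ?_⟩
  rw [hNc]
  conv_rhs => rw [← Nat.prod_factorization_pow_eq_self hk0]
  rfl

/-- In a Frobenius group no element of the kernel commutes with an element outside. -/
theorem order_mul_of_frobenius {F : Type u} [Group F] [Finite F] {C K : Subgroup F} [K.Normal]
    (hC : IsFrobeniusComplement C) (hK : (K : Set F) = frobeniusKernel C) (hKC : IsComplement' K C)
    {p q : ℕ} (hp : p.Prime) (hq : q.Prime) (hpK : p ∣ Nat.card K) (hqC : q ∣ Nat.card C) (f : F) :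
    orderOf f ≠ p * q := by
  intro hf
  have hcop : (Nat.card K).Coprime K.index := by
    have h1 := FrobGroup.coprime_card_index hC
    rw [hKC.symm.index_eq_card]
    rw [hKC.index_eq_card] at h1
    exact h1.symm
  have hidx : K.index = Nat.card C := hKC.symm.index_eq_card
  rw [hidx] at hcop
  have hpq : p ≠ q := by
    rintro rfl
    exact hp.one_lt.ne' (Nat.eq_one_of_dvd_coprimes hcop hpK hqC)
  have hfq : orderOf (f ^ q) = p := by
    rw [orderOf_pow_of_dvd hq.ne_zero (by rw [hf]; exact Dvd.intro_left _ rfl), hf, Nat.mul_div_cancel _ hq.pos]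
  have h1 : f ^ q ∈ K := by
    rw [mem_iff_primesIn (by rw [hidx]; exact hcop), hfq]
    intro r hr hrp
    rw [(Nat.prime_dvd_prime_iff_eq hr hp).1 hrp]; exact hpK
  have h2 : f ∉ K := by
    intro hfK
    have h3 := orderOf_dvd_natCard (⟨f, hfK⟩ : K)
    rw [Subgroup.orderOf_mk, hf] at h3
    exact hq.one_lt.ne' (Nat.eq_one_of_dvd_coprimes hcop ((Dvd.intro_left _ rfl).trans h3) hqC)
  have h3 : f ∉ frobeniusKernel C := by rw [← hK]; exact h2
  rw [FrobGroup.mem_kernel_iff, not_or] at h3
  obtain ⟨h4, h5⟩ := h3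
  push Not at h5
  obtain ⟨g, hg⟩ := h5
  have h6 : g⁻¹ * f ^ q * g ∈ C := by
    have : g⁻¹ * f ^ q * g = (g⁻¹ * f * g) ^ q := by
      have := conj_pow (i := q) (a := g⁻¹) (b := f)
      simp only [inv_inv] at this
      exact this.symm
    rw [this]; exact pow_mem hg q
  have h7 : g⁻¹ * f ^ q * g ∈ K := by
    have := (inferInstance : K.Normal).conj_mem _ h1 g⁻¹
    simpa using this
  have h8 : g⁻¹ * f ^ q * g = 1 := by
    have : g⁻¹ * f ^ q * g ∈ K ⊓ C := ⟨h7, h6⟩
    rwa [hKC.disjoint.eq_bot, Subgroup.mem_bot] at this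
  have h9 : f ^ q = 1 := by
    have : f ^ q = g * (g⁻¹ * f ^ q * g) * g⁻¹ := by group
    rw [this, h8]; group
  rw [h9, orderOf_one] at hfq
  exact hp.one_lt.ne hfq

/-- counting the elements of order `m ≠ 1`, `m` prime to `|K|`, in a Frobenius group -/
theorem card_order_eq {F : Type u} [Group F] [Finite F] {C K : Subgroup F} [K.Normal]
    (hC : IsFrobeniusComplement C) (hK : (K : Set F) = frobeniusKernel C) (hKC : IsComplement' K C)
    {m : ℕ} (hm1 : m ≠ 1) (hm : m.Coprime (Nat.card K)) :
    Nat.card {f : F // orderOf f = m} = Nat.card K * Nat.card {c : C // orderOf c = m} := by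
  have h1 := FrobGroup.card_conj_set hC {x : F | x ∈ C ∧ orderOf x = m} (fun x hx => hx.1) (by
    rintro ⟨_, h⟩
    rw [orderOf_one] at h
    exact hm1 h.symm) (by
    rintro h hh s ⟨hs, hs2⟩
    refine ⟨C.mul_mem (C.mul_mem (C.inv_mem hh) hs) hh, ?_⟩
    rw [← hs2]
    have := MulEquiv.orderOf_eq (MulAut.conj h⁻¹) s
    rw [MulAut.conj_apply, inv_inv] at this
    exact this)
  have h2 : {x : F | ∃ g : F, g⁻¹ * x * g ∈ {x : F | x ∈ C ∧ orderOf x = m}} = {x : F | orderOf x = m} := by
    ext x
    have hord : ∀ g : F, orderOf (g⁻¹ * x * g) = orderOf x := by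
      intro g
      have := MulEquiv.orderOf_eq (MulAut.conj g⁻¹) x
      rw [MulAut.conj_apply, inv_inv] at this
      exact this
    constructor
    · rintro ⟨g, _, hg⟩
      rw [hord] at hg
      exact hg
    · intro hx
      have hx' : orderOf x = m := hx
      have h3 : x ∉ K := by
        intro hxK
        have h3 := orderOf_dvd_natCard (⟨x, hxK⟩ : K)
        rw [Subgroup.orderOf_mk, hx'] at h3
        exact hm1 (Nat.eq_one_of_dvd_coprimes hm dvd_rfl h3)
      have h4 : x ∉ frobeniusKernel C := by rw [← hK]; exact h3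
      rw [FrobGroup.mem_kernel_iff, not_or] at h4
      obtain ⟨_, h5⟩ := h4
      push Not at h5
      obtain ⟨g, hg⟩ := h5
      exact ⟨g, hg, by rw [hord]; exact hx'⟩
  rw [h2, hKC.index_eq_card] at h1
  have h3 : Nat.card {f : F // orderOf f = m} = Nat.card {x : F | orderOf x = m} := rfl
  rw [h3, h1]
  congr 1
  refine Nat.card_congr ⟨fun x => ⟨⟨x.1, x.2.1⟩, ?_⟩, fun x => ⟨x.1.1, x.1.2, ?_⟩, fun _ => rfl, fun _ => rfl⟩
  · rw [Subgroup.orderOf_mk]; exact x.2.2
  · rw [Subgroup.orderOf_coe]; exact x.2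

end Cfsg.Agent.Lib.FrobOrderType
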