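import Cfsg.Agent.Lib.FrobOrderType
import Cfsg.Agent.S3997

set_option autoImplicit false

/-!
Groups with the order type of a Frobenius group with nilpotent kernel: the main theorem.
-/

namespace Cfsg.Agent.Lib.FrobOrderType2

open Subgroup Cfsg Cfsg.Agent.Lib.OrderType Cfsg.Agent.Lib.FrobOrderType Cfsg.Agent.Lib.FrobCType

universe u v

theorem smallRank_complement {F : Type u} [Group F] [Finite F] {C K : Subgroup F} [K.Normal]
    (hC : IsFrobeniusComplement C) (hKC : IsComplement' K C) (hK1 : K ≠ ⊥) : SmallRank C := by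
  have hfpf := (FrobGroup.isFrobeniusComplement_iff hKC hK1 hC.1).1 hC
  obtain ⟨V, act, _, hV1, hVc, hVf⟩ := Cfsg.Agent.Lib.FrobAction2.exists_fpf_action hKC hK1 hfpf
  let _ : CommGroup V := { (inferInstance : Group V) with mul_comm := fun a b => Subtype.ext (hVc a a.2 b b.2) }
  have : Nontrivial V := (Subgroup.nontrivial_iff_ne_bot V).2 hV1
  exact smallRank_of_fpf (act := act) (fun a ha v hv => hVf a ha v hv)

theorem isSolvable_iff_complement {F : Type u} [Group F] [Finite F] {C K : Subgroup F} [K.Normal]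
    (hKC : IsComplement' K C) (hKs : Group.IsSolvable K) : Group.IsSolvable F ↔ Group.IsSolvable C := by
  constructor
  · intro h; infer_instance
  · intro h
    refine (Group.isSolvable_iff_subgroup_quotient K).2 ⟨hKs, ?_⟩
    exact Group.isSolvable_of_surjective (f := hKC.symm.QuotientMulEquiv.symm.toMonoidHom)
      (hKC.symm.QuotientMulEquiv.symm.surjective)

theorem index_coprime {F : Type u} [Group F] [Finite F] {C K : Subgroup F} [K.Normal]
    (hC : IsFrobeniusComplement C) (hKC : IsComplement' K C) :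
    (Nat.card K).Coprime (Nat.card C) := by
  have h1 := FrobGroup.coprime_card_index hC
  rw [hKC.index_eq_card] at h1
  exact h1.symm

/-- order types of complements -/
theorem orderType_complement {F : Type u} {G : Type v} [Group F] [Finite F] [Group G] [Finite G]
    (hT : ∀ m : ℕ, Nat.card {g : F // orderOf g = m} = Nat.card {h : G // orderOf h = m})
    {C K : Subgroup F} [K.Normal] (hC : IsFrobeniusComplement C) (hK : (K : Set F) = frobeniusKernel C)
    (hKC : IsComplement' K C) {C' K' : Subgroup G} [K'.Normal] (hC' : IsFrobeniusComplement C')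
    (hK' : (K' : Set G) = frobeniusKernel C') (hKC' : IsComplement' K' C') (hcard : Nat.card K' = Nat.card K)
    (m : ℕ) : Nat.card {c : C // orderOf c = m} = Nat.card {c : C' // orderOf c = m} := by
  have hcC := index_coprime hC hKC
  have hcC' := index_coprime hC' hKC'
  have hCC' : Nat.card C' = Nat.card C := by
    have h1 := hKC.card_mul_card
    have h2 := hKC'.card_mul_card
    rw [hcard, ← card_eq hT, ← h1] at h2
    exact Nat.eq_of_mul_eq_mul_left Nat.card_pos h2
  by_cases hm1 : m = 1
  · subst hm1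
    simp only [orderOf_eq_one_iff]
    have e1 : Nat.card {c : C // c = 1} = 1 := Nat.card_unique
    have e2 : Nat.card {c : C' // c = 1} = 1 := Nat.card_unique
    rw [e1, e2]
  by_cases hm : m.Coprime (Nat.card K)
  · have h1 := card_order_eq hC hK hKC hm1 hm
    have h2 := card_order_eq hC' hK' hKC' hm1 (by rw [hcard]; exact hm)
    rw [hT m, h2, hcard] at h1
    exact (Nat.eq_of_mul_eq_mul_left Nat.card_pos h1).symm
  · have e1 : Nat.card {c : C // orderOf c = m} = 0 := by
      rw [Nat.card_eq_zero]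
      left
      refine ⟨?_⟩
      rintro ⟨c, hc⟩
      apply hm
      have h1 := orderOf_dvd_natCard c
      rw [hc] at h1
      exact (Nat.Coprime.coprime_dvd_right h1 hcC).symm
    have e2 : Nat.card {c : C' // orderOf c = m} = 0 := by
      rw [Nat.card_eq_zero]
      left
      refine ⟨?_⟩
      rintro ⟨c, hc⟩
      apply hm
      have h1 := orderOf_dvd_natCard c
      rw [hc, hCC'] at h1
      exact (Nat.Coprime.coprime_dvd_right h1 hcC).symm
    rw [e1, e2]

theorem exists_complement {F : Type u} {G : Type v} [Group F] [Finite F] [Group G] [Finite G]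
    (hT : ∀ m : ℕ, Nat.card {g : F // orderOf g = m} = Nat.card {h : G // orderOf h = m})
    {C K : Subgroup F} [K.Normal] (hC : IsFrobeniusComplement C) (hK : (K : Set F) = frobeniusKernel C)
    (hKC : IsComplement' K C) (hnil : Group.IsNilpotent K) :
    ∃ K' C' : Subgroup G, K'.Normal ∧ IsFrobeniusComplement C' ∧ (K' : Set G) = frobeniusKernel C' ∧
      IsComplement' K' C' ∧ Nat.card K' = Nat.card K ∧ Group.IsNilpotent K' := by
  have hcop := index_coprime hC hKC
  have hcop' : (Nat.card K).Coprime K.index := by rw [hKC.symm.index_eq_card]; exact hcop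
  have hcF : Nat.card G = Nat.card K * Nat.card C := by rw [← card_eq hT, hKC.card_mul_card]
  -- normal Sylow subgroups
  have hSyl : ∀ p : ℕ, p.Prime → p ∣ Nat.card K → ∀ P : Sylow p G, (P : Subgroup G).Normal := by
    intro p hp hpK P
    have := Fact.mk hp
    obtain ⟨Q⟩ : Nonempty (Sylow p F) := inferInstance
    have hQK : (Q : Subgroup F) ≤ K := by
      intro x hx
      rw [mem_iff_primesIn hcop']
      obtain ⟨k, hk⟩ := (IsPGroup.iff_orderOf.1 Q.2) ⟨x, hx⟩
      rw [Subgroup.orderOf_mk] at hk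
      intro q hq hqd
      rw [hk] at hqd
      rw [(Nat.prime_dvd_prime_iff_eq hq hp).1 (hq.dvd_of_dvd_pow hqd)]
      exact hpK
    exact sylow_normal hT Q (sylow_normal_of_le hnil Q hQK) P
  obtain ⟨K', hK'n, hK'c⟩ := exists_hall_of_sylow_normal hcF hcop hSyl
  have hK'i : K'.index = Nat.card C := by
    have h1 := K'.card_mul_index
    rw [hK'c, hcF] at h1
    exact Nat.eq_of_mul_eq_mul_left Nat.card_pos h1
  have hcop2 : (Nat.card K').Coprime K'.index := by rw [hK'c, hK'i]; exact hcop
  obtain ⟨C', hC'⟩ := Subgroup.exists_right_complement'_of_coprime hcop2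
  have hC'c : Nat.card C' = Nat.card C := by
    rw [← hK'i, hC'.symm.index_eq_card]
  have hK'1 : K' ≠ ⊥ := by
    intro h
    have h1 : Nat.card K = 1 := by rw [← hK'c, h, Subgroup.card_bot]
    have h2 := hKC.card_mul_card
    rw [h1, one_mul] at h2
    have h3 := FrobGroup.one_lt_index hC
    rw [hKC.index_eq_card, h1] at h3
    exact lt_irrefl _ h3
  have hC'1 : C' ≠ ⊥ := by
    intro h
    have h1 : Nat.card C = 1 := by rw [← hC'c, h, Subgroup.card_bot]
    exact hC.1 (Subgroup.card_eq_one.1 h1)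
  have hFC' : IsFrobeniusComplement C' := by
    rw [FrobGroup.isFrobeniusComplement_iff hC' hK'1 hC'1]
    intro h hh hh1
    rw [eq_bot_iff]
    rintro x ⟨hx1, hx2⟩
    rw [Subgroup.mem_bot]
    by_contra hx
    have hcomm : Commute x h := Subgroup.mem_centralizer_singleton_iff.1 hx2
    obtain ⟨p, hp, hpx⟩ := Nat.exists_prime_and_dvd (n := orderOf x) (by rwa [Ne, orderOf_eq_one_iff])
    obtain ⟨q, hq, hqh⟩ := Nat.exists_prime_and_dvd (n := orderOf h) (by rwa [Ne, orderOf_eq_one_iff])
    have hxK := orderOf_dvd_natCard (⟨x, hx1⟩ : K')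
    rw [Subgroup.orderOf_mk, hK'c] at hxK
    have hhC := orderOf_dvd_natCard (⟨h, hh⟩ : C')
    rw [Subgroup.orderOf_mk, hC'c] at hhC
    obtain ⟨a, ha⟩ := hpx
    obtain ⟨b, hb⟩ := hqh
    have hx0 : 0 < orderOf x := orderOf_pos x
    have hh0 : 0 < orderOf h := orderOf_pos h
    have ha0 : a ≠ 0 := by rintro rfl; rw [ha] at hx0; simp at hx0
    have hb0 : b ≠ 0 := by rintro rfl; rw [hb] at hh0; simp at hh0
    have h1 : orderOf (x ^ a) = p := by
      rw [orderOf_pow_of_dvd ha0 (by rw [ha]; exact Dvd.intro_left _ rfl), ha,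
        Nat.mul_div_cancel _ (Nat.pos_of_ne_zero ha0)]
    have h2 : orderOf (h ^ b) = q := by
      rw [orderOf_pow_of_dvd hb0 (by rw [hb]; exact Dvd.intro_left _ rfl), hb,
        Nat.mul_div_cancel _ (Nat.pos_of_ne_zero hb0)]
    have hpK : p ∣ Nat.card K := (Dvd.intro _ ha.symm).trans hxK
    have hqC : q ∣ Nat.card C := (Dvd.intro _ hb.symm).trans hhC
    have h3 : orderOf (x ^ a * h ^ b) = p * q := by
      rw [(hcomm.pow_pow a b).orderOf_mul_eq_mul_orderOf_of_coprime, h1, h2]
      rw [h1, h2]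
      exact Nat.Coprime.coprime_dvd_left hpK (Nat.Coprime.coprime_dvd_right hqC hcop)
    have h4 : Nat.card {f : F // orderOf f = p * q} ≠ 0 := by
      rw [hT, Nat.card_ne_zero]
      exact ⟨⟨⟨_, h3⟩⟩, inferInstance⟩
    obtain ⟨⟨f, hf⟩⟩ := (Nat.card_ne_zero.1 h4).1
    exact order_mul_of_frobenius hC hK hKC hp hq hpK hqC f hf
  refine ⟨K', C', hK'n, hFC', (FrobGroup.kernel_eq_of_complement hC' hFC').symm, hC', hK'c, ?_⟩
  refine Cfsg.Agent.S3997.result (G := K) (H := K') ?_ hnil
  intro m
  have e1 : Nat.card {x : K // orderOf x = m} = Nat.card {f : F // orderOf f = m ∧ PrimesIn (Nat.card K) (orderOf f)} := by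
    refine Nat.card_congr ⟨fun x => ⟨x.1.1, ?_, ?_⟩, fun x => ⟨⟨x.1, ?_⟩, ?_⟩, fun _ => rfl, fun _ => rfl⟩
    · rw [Subgroup.orderOf_coe]; exact x.2
    · exact (mem_iff_primesIn hcop' _).1 x.1.2
    · exact (mem_iff_primesIn hcop' _).2 x.2.2
    · rw [Subgroup.orderOf_mk]; exact x.2.1
  have e2 : Nat.card {x : K' // orderOf x = m} = Nat.card {f : G // orderOf f = m ∧ PrimesIn (Nat.card K) (orderOf f)} := by
    refine Nat.card_congr ⟨fun x => ⟨x.1.1, ?_, ?_⟩, fun x => ⟨⟨x.1, ?_⟩, ?_⟩, fun _ => rfl, fun _ => rfl⟩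
    · rw [Subgroup.orderOf_coe]; exact x.2
    · rw [← hK'c]; exact (mem_iff_primesIn hcop2 _).1 x.1.2
    · exact (mem_iff_primesIn hcop2 _).2 (by rw [hK'c]; exact x.2.2)
    · rw [Subgroup.orderOf_mk]; exact x.2.1
  rw [e1, e2]
  exact card_pred hT (fun k => k = m ∧ PrimesIn (Nat.card K) k)

theorem main {F : Type u} {G : Type v} [Group F] [Finite F] [Group G] [Finite G]
    {C : Subgroup F} (hC : IsFrobeniusComplement C)
    (hnil : ∀ N : Subgroup F, (N : Set F) = frobeniusKernel C → Group.IsNilpotent N)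
    (hT : ∀ m : ℕ, Nat.card {g : F // orderOf g = m} = Nat.card {h : G // orderOf h = m}) :
    (∃ C : Subgroup G, IsFrobeniusComplement C) ∧ (Group.IsSolvable G ↔ Group.IsSolvable F) := by
  obtain ⟨K, hK, hKn, hKC⟩ := FrobThm.exists_kernel hC
  have hKnil := hnil K hK
  obtain ⟨K', C', hK'n, hC', hK', hKC', hcard, hK'nil⟩ := exists_complement hT hC hK hKC hKnil
  refine ⟨⟨C', hC'⟩, ?_⟩
  have hKs : Group.IsSolvable K := inferInstance
  have hKs' : Group.IsSolvable K' := inferInstance
  rw [isSolvable_iff_complement hKC hKs, isSolvable_iff_complement hKC' hKs']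
  have hTC := orderType_complement hT hC hK hKC hC' hK' hKC' hcard
  have h1 : K ≠ ⊥ := by
    intro h
    have h3 := FrobGroup.one_lt_index hC
    rw [hKC.index_eq_card, h, Subgroup.card_bot] at h3
    exact lt_irrefl _ h3
  have h2 : K' ≠ ⊥ := by
    intro h
    have h3 := FrobGroup.one_lt_index hC'
    rw [hKC'.index_eq_card, h, Subgroup.card_bot] at h3
    exact lt_irrefl _ h3
  constructor
  · intro h
    exact isSolvable_of_orderType h (smallRank_complement hC' hKC' h2) (fun m => (hTC m).symm)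
  · intro h
    exact isSolvable_of_orderType h (smallRank_complement hC hKC h1) hTC

end Cfsg.Agent.Lib.FrobOrderType2
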