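import Cfsg.Agent.Lib.SylowChain
import Cfsg.Agent.Lib.SylAmb

set_option autoImplicit false
open Cfsg
open scoped Pointwise

/-! Chains for the families attached to a normalizer functor (helper49). -/

namespace Cfsg.Agent.Lib.FunctorChain

open Cfsg.Agent.Lib.SylowIn Cfsg.Agent.Lib.SylowChain Cfsg.Agent.Lib.SylAmb

variable {G : Type*} [Group G]

theorem mem_sylowMembers_iff [Finite G] {p : ℕ} [Fact p.Prime] {𝓕 : Set (Subgroup G)} {S X : Subgroup G} :
    X ∈ sylowMembers p 𝓕 S ↔ X ∈ 𝓕 ∧ IsSyl p (S ⊓ X) X := by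
  constructor
  · rintro ⟨h1, P, hP⟩
    refine ⟨h1, ?_⟩
    rw [← hP]
    exact isSyl_of_sylow P
  · rintro ⟨h1, h2⟩
    obtain ⟨P, hP⟩ := h2.exists_sylow
    exact ⟨h1, P, hP⟩

/-- membership in the functor family, with ambient Sylow subgroups -/
theorem mem_functorFamily_iff [Finite G] {p : ℕ} [Fact p.Prime] {f : Subgroup G → Set (Subgroup G)}
    {M X : Subgroup G} : X ∈ functorFamily p f M ↔
      ∃ A, IsSyl p A M ∧ ∃ F ∈ f A, X = M ⊓ Subgroup.normalizer (F : Set G) := by
  constructor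
  · rintro ⟨P, F, hF, rfl⟩
    exact ⟨_, isSyl_of_sylow P, F, hF, rfl⟩
  · rintro ⟨A, hA, F, hF, rfl⟩
    obtain ⟨P, rfl⟩ := hA.exists_sylow
    exact ⟨P, F, hF, rfl⟩

theorem map_conj_top (g : G) : (⊤ : Subgroup G).map (MulAut.conj g).toMonoidHom = ⊤ :=
  Subgroup.map_top_of_surjective _ (MulAut.conj g).surjective

/-- The functor family is closed under conjugation. -/
theorem isNormalSet_functorFamily_top [Finite G] {p : ℕ} [Fact p.Prime] {f : Subgroup G → Set (Subgroup G)}
    (hf : IsNormalizerFunctor p f) : IsNormalSet (functorFamily p f ⊤) := by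
  intro X hX g
  rw [mem_functorFamily_iff] at hX ⊢
  obtain ⟨A, hA, F, hF, rfl⟩ := hX
  have h1 := (hf _ hA.2.1).2 g⁻¹
  have h2 := hA.conj g⁻¹
  rw [map_conj_top] at h2
  refine ⟨_, h2, F.map (MulAut.conj g⁻¹).toMonoidHom, ?_, ?_⟩
  · rw [h1]
    exact ⟨F, hF, rfl⟩
  · unfold subgroupConjRight
    rw [Subgroup.map_inf_eq _ _ _ (MulAut.conj g⁻¹).injective, map_conj_top, Subgroup.map_equiv_normalizer_eq]

/-- In a chain inside `M` for the family of `M`, the Sylow subgroup used by a member lies in it. -/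
theorem le_of_mem_functorFamily [Finite G] {p : ℕ} [Fact p.Prime] {f : Subgroup G → Set (Subgroup G)}
    (hf : IsNormalizerFunctor p f) {M A F : Subgroup G} (hA : IsSyl p A M) (hF : F ∈ f A) :
    A ≤ M ⊓ Subgroup.normalizer (F : Set G) :=
  le_inf hA.1 (Subgroup.le_normalizer.trans ((hf A hA.2.1).1 F hF).2)

/-- Ambient form of regularity: a Sylow subgroup `B` of `M` is linked, over a nontrivial subgroup `D ≤ A ⊓ B`, to
a Sylow subgroup `A` of `M` by steps inside `M`. -/
inductive MConn (p : ℕ) (f : Subgroup G → Set (Subgroup G)) (M D : Subgroup G) (A : Subgroup G) :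
    Subgroup G → Prop
  | refl (h : IsSyl p A M) (hD : D ≤ A) : MConn p f M D A A
  | step (B : Subgroup G) (hB : MConn p f M D A B) (P F : Subgroup G) (hP : IsSyl p P M) (hF : F ∈ f P)
      (x : G) (hx : x ∈ M ⊓ Subgroup.normalizer (F : Set G))
      (hB1 : B ≤ M ⊓ Subgroup.normalizer (F : Set G))
      (hD : D ≤ B.map (MulAut.conj x).toMonoidHom) : MConn p f M D A (B.map (MulAut.conj x).toMonoidHom)

theorem MConn.isSyl [Finite G] {p : ℕ} [Fact p.Prime] {f : Subgroup G → Set (Subgroup G)} {M D A B : Subgroup G}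
    (h : MConn p f M D A B) : IsSyl p B M ∧ D ≤ B := by
  induction h with
  | refl h hD => exact ⟨h, hD⟩
  | step B hB P F hP hF x hx hB1 hD ih =>
    refine ⟨?_, hD⟩
    have := ih.1.conj x
    rwa [map_conj_eq_of_mem hx.1] at this

theorem sylow_le_of_isSyl_inf [Finite G] {p : ℕ} [Fact p.Prime] {M X S P : Subgroup G} (hXM : X ≤ M)
    (hP : IsSyl p P M) (hPX : P ≤ X) (hS : IsSyl p S M) (hSX : IsSyl p (S ⊓ X) X) : S ≤ X := by
  have h1 := hP.mono_right hPX hXM
  have h2 : S ⊓ X = S := by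
    apply Subgroup.eq_of_le_of_card_ge inf_le_left
    rw [hSX.card_eq, ← h1.card_eq, hP.card_eq, ← hS.card_eq]
  rw [← h2]; exact inf_le_right

/-- From regularity of `M` to ambient chains. -/
theorem mconn_of_regular [Finite G] {p : ℕ} [Fact p.Prime] {f : Subgroup G → Set (Subgroup G)}
    (hf : IsNormalizerFunctor p f) {M : Subgroup G} (hM : IsFunctorRegular p f M) {A B : Subgroup G}
    (hA : IsSyl p A M) (hB : IsSyl p B M) (hAB : A ⊓ B ≠ ⊥) : MConn p f M (A ⊓ B) A B := by
  obtain ⟨A', rfl⟩ := hA.exists_sylow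
  obtain ⟨B', rfl⟩ := hB.exists_sylow
  by_cases hne : A' = B'
  · subst hne
    exact MConn.refl hA inf_le_left
  · unfold IsFunctorRegular at hM
    rw [controls_iff] at hM
    have hbot : (A' : Subgroup ↥M) ⊓ (B' : Subgroup ↥M) ≠ ⊥ := by
      intro h
      apply hAB
      rw [← Subgroup.map_inf_eq _ _ _ M.subtype_injective, h, Subgroup.map_bot]
    have h1 := hM A' B' hne hbot
    obtain ⟨D', hD'⟩ : ∃ D' : Set ↥M, D' = (A' : Set ↥M) ∩ (B' : Set ↥M) := ⟨_, rfl⟩
    obtain ⟨D, hD⟩ : ∃ D : Subgroup G, D = (A' : Subgroup ↥M).map M.subtype ⊓ (B' : Subgroup ↥M).map M.subtype := ⟨_, rfl⟩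
    have hDA : D ≤ (A' : Subgroup ↥M).map M.subtype := by rw [hD]; exact inf_le_left
    have hDeq : ∀ x : G, x ∈ D → ∃ hx : x ∈ M, (⟨x, hx⟩ : ↥M) ∈ D' := by
      intro x hx
      rw [hD] at hx
      obtain ⟨⟨a, ha, hax⟩, ⟨b, hb, hbx⟩⟩ := hx
      have hab : a = b := Subtype.ext (hax.trans hbx.symm)
      subst hab
      have : x = (a : G) := hax.symm
      subst this
      rw [hD']
      exact ⟨a.2, ha, hb⟩
    rw [← hD]
    rw [← hD'] at h1
    clear hD' hD hB hAB hne hbot
    unfold Conn at h1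
    induction h1 with
    | refl =>
      exact MConn.refl hA hDA
    | @tail B₁ C₁ _ hR ih =>
      obtain ⟨X', hX1, hX2, x, hx, hxS, hA1, hA2⟩ := hR
      rw [mem_sylowMembers_iff] at hX1 hX2
      obtain ⟨⟨X, hX, rfl⟩, hS1⟩ := hX1
      rw [mem_functorFamily_iff] at hX
      obtain ⟨P, hP, F, hF, rfl⟩ := hX
      have hPX := le_of_mem_functorFamily hf hP hF
      have hxX : (x : G) ∈ M ⊓ Subgroup.normalizer (F : Set G) := hx
      have hC : (C₁ : Subgroup ↥M).map M.subtype = ((B₁ : Subgroup ↥M).map M.subtype).map (MulAut.conj (x : G)).toMonoidHom := by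
        rw [← hxS, coe_smul_eq_map, Subgroup.map_map, Subgroup.map_map]
        congr 1
      rw [hC]
      -- B₁ lies in the member
      have hB₁ : IsSyl p ((B₁ : Subgroup ↥M).map M.subtype) M := isSyl_of_sylow B₁
      have hB₁X : (B₁ : Subgroup ↥M).map M.subtype ≤ M ⊓ Subgroup.normalizer (F : Set G) := by
        apply sylow_le_of_isSyl_inf inf_le_left hP hPX hB₁
        obtain ⟨Q, hQ⟩ := hS1.exists_sylow
        have h3 : IsSyl p (((Q : Subgroup ↥((M ⊓ Subgroup.normalizer (F : Set G)).subgroupOf M)).map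
            ((M ⊓ Subgroup.normalizer (F : Set G)).subgroupOf M).subtype).map M.subtype)
            (((M ⊓ Subgroup.normalizer (F : Set G)).subgroupOf M).map M.subtype) := by
          refine ⟨Subgroup.map_mono (Subgroup.map_subtype_le _), (Q.isPGroup'.map _).map _, ?_⟩
          rw [Subgroup.relIndex_map_map_of_injective _ _ M.subtype_injective]
          exact (isSyl_of_sylow Q).2.2
        rw [hQ, Subgroup.map_inf_eq _ _ _ M.subtype_injective, Subgroup.subgroupOf_map_subtype] at h3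
        have h4 : (M ⊓ Subgroup.normalizer (F : Set G)) ⊓ M = M ⊓ Subgroup.normalizer (F : Set G) :=
          inf_eq_left.mpr inf_le_left
        rw [h4] at h3
        exact h3
      refine MConn.step _ ih P F hP hF (x : G) hxX hB₁X ?_
      rw [← hC]
      intro y hy
      obtain ⟨hyM, hyD⟩ := hDeq y hy
      exact ⟨⟨y, hyM⟩, hA1 hyD, rfl⟩

/-- If `M` contains a Sylow subgroup of `G`, chains in `M` are chains in `G`. -/
theorem conn_of_mconn [Finite G] {p : ℕ} [Fact p.Prime] {f : Subgroup G → Set (Subgroup G)}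
    (hf : IsNormalizerFunctor p f) {M D A B : Subgroup G} (h : MConn p f M D A B) :
    ∀ S T : Sylow p G, (S : Subgroup G) = A → (T : Subgroup G) = B →
      Conn p (functorFamily p f ⊤) (D : Set G) S T := by
  induction h with
  | refl h hD =>
    intro S T hS hT
    have : S = T := Sylow.ext (hS.trans hT.symm)
    subst this
    exact Relation.ReflTransGen.refl
  | step B hB P F hP hF x hx hB1 hD ih =>
    intro S T hS hT
    have hBM := hB.isSyl.1
    have hcardP : Nat.card ↥P = Nat.card ↥B := by rw [hP.card_eq, hBM.card_eq]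
    have hcardT : Nat.card ↥(T : Subgroup G) = Nat.card ↥B := by
      rw [hT, Subgroup.card_map_of_injective (MulAut.conj x).injective]
    have hTs : IsSyl p (T : Subgroup G) ⊤ := isSyl_coe T le_top
    have hBs : IsSyl p B ⊤ := isSyl_of_card_ge hTs hBM.2.1 le_top hcardT.le
    have hPs : IsSyl p P ⊤ := isSyl_of_card_ge hTs hP.2.1 le_top (by rw [hcardT, hcardP])
    obtain ⟨U, hU⟩ := hBs.exists_sylow_top
    refine Relation.ReflTransGen.tail (ih S U hS hU) ?_
    have hxU : x • U = T := by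
      apply Sylow.ext
      rw [coe_smul_eq_map, hU, hT]
    refine ⟨⊤ ⊓ Subgroup.normalizer (F : Set G), ?_, ?_, x, ⟨trivial, hx.2⟩, hxU, ?_, ?_⟩
    · rw [mem_sylowMembers_iff]
      refine ⟨mem_functorFamily_iff.mpr ⟨P, hPs, F, hF, rfl⟩, ?_⟩
      have hle : (U : Subgroup G) ≤ ⊤ ⊓ Subgroup.normalizer (F : Set G) := by
        rw [hU]; exact le_inf le_top (hB1.trans inf_le_right)
      rw [inf_eq_left.mpr hle]
      exact isSyl_coe U hle
    · rw [mem_sylowMembers_iff]
      refine ⟨mem_functorFamily_iff.mpr ⟨P, hPs, F, hF, rfl⟩, ?_⟩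
      have hle : (T : Subgroup G) ≤ ⊤ ⊓ Subgroup.normalizer (F : Set G) := by
        rw [hT]
        rintro _ ⟨y, hy, rfl⟩
        refine ⟨trivial, ?_⟩
        have h1 := (hB1 hy).2
        exact Subgroup.mul_mem _ (Subgroup.mul_mem _ hx.2 h1) (Subgroup.inv_mem _ hx.2)
      rw [inf_eq_left.mpr hle]
      exact isSyl_coe T hle
    · rw [← hT] at hD
      exact hD
    · intro y hy
      have h1 := hD hy
      rw [mem_map_conj_iff] at h1
      have h2 := hB1 h1
      have h3 := Subgroup.mul_mem _ (Subgroup.mul_mem _ hx.2 h2.2) (Subgroup.inv_mem _ hx.2)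
      refine ⟨trivial, ?_⟩
      show y ∈ Subgroup.normalizer (F : Set G)
      convert h3 using 1
      group

/-- Regularity of `⊤` from control in `G`. -/
theorem regular_top_of_controls [Finite G] {p : ℕ} [Fact p.Prime] {f : Subgroup G → Set (Subgroup G)}
    (h : ControlsSylowIntersections p (functorFamily p f ⊤)) : IsFunctorRegular p f ⊤ := by
  unfold IsFunctorRegular
  rw [controls_iff] at h ⊢
  intro S' T' hne hbot
  have hup : ∀ S' : Sylow p ↥(⊤ : Subgroup G), ∃ S : Sylow p G,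
      (S : Subgroup G) = (S' : Subgroup ↥(⊤ : Subgroup G)).map (⊤ : Subgroup G).subtype :=
    fun S' => (isSyl_of_sylow S').exists_sylow_top
  choose up hup using hup
  have hdown : ∀ (S : Sylow p G) (S' : Sylow p ↥(⊤ : Subgroup G)), S = up S' → S' = S.subtype le_top := by
    rintro S S' rfl
    apply Sylow.ext
    rw [Sylow.coe_subtype, hup]
    exact (Subgroup.comap_map_eq_self_of_injective (Subgroup.subtype_injective _) _).symm
  have hstep : ∀ (A : Set G) (S T : Sylow p G), Step p (functorFamily p f ⊤) A S T →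
      Step p ((fun X : Subgroup G => X.subgroupOf ⊤) '' functorFamily p f ⊤) ((⊤ : Subgroup G).subtype ⁻¹' A)
        (S.subtype le_top) (T.subtype le_top) := by
    rintro A S T ⟨X, h1, h2, x, hx, hxS, hA1, hA2⟩
    rw [mem_sylowMembers_iff] at h1 h2
    have key : ∀ S : Sylow p G, IsSyl p ((S : Subgroup G) ⊓ X) X →
        IsSyl p (((S.subtype le_top : Sylow p ↥(⊤ : Subgroup G)) : Subgroup ↥(⊤ : Subgroup G)) ⊓ X.subgroupOf ⊤) (X.subgroupOf ⊤) := by
      intro S hS
      refine ⟨inf_le_right, (Sylow.isPGroup' _).to_le inf_le_left, ?_⟩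
      have : ((S.subtype le_top : Sylow p ↥(⊤ : Subgroup G)) : Subgroup ↥(⊤ : Subgroup G)) ⊓ X.subgroupOf ⊤ =
          ((S : Subgroup G) ⊓ X).subgroupOf ⊤ := rfl
      rw [this, Subgroup.relIndex_subgroupOf le_top]
      exact hS.2.2
    refine ⟨X.subgroupOf ⊤, ?_, ?_, ⟨x, trivial⟩, hx, ?_, ?_, ?_⟩
    · rw [mem_sylowMembers_iff]; exact ⟨⟨X, h1.1, rfl⟩, key S h1.2⟩
    · rw [mem_sylowMembers_iff]; exact ⟨⟨X, h2.1, rfl⟩, key T h2.2⟩
    · apply Sylow.ext
      ext y
      rw [mem_smul_iff]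
      show x⁻¹ * (y : G) * x ∈ (S : Subgroup G) ↔ (y : G) ∈ (T : Subgroup G)
      rw [← hxS, mem_smul_iff]
    · intro y hy; exact hA1 hy
    · intro y hy; exact hA2 hy
  have h1 := h (up S') (up T') ?_ ?_
  · have h2 : Conn p ((fun X : Subgroup G => X.subgroupOf ⊤) '' functorFamily p f ⊤)
        ((⊤ : Subgroup G).subtype ⁻¹' ((up S' : Set G) ∩ (up T' : Set G)))
        ((up S').subtype le_top) ((up T').subtype le_top) := by
      have key2 : ∀ (A : Set G) (S T : Sylow p G), Conn p (functorFamily p f ⊤) A S T →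
          Conn p ((fun X : Subgroup G => X.subgroupOf ⊤) '' functorFamily p f ⊤) ((⊤ : Subgroup G).subtype ⁻¹' A)
            (S.subtype le_top) (T.subtype le_top) := by
        intro A S T hST
        unfold Conn at hST ⊢
        induction hST with
        | refl => exact Relation.ReflTransGen.refl
        | tail _ hR ih => exact ih.tail (hstep _ _ _ hR)
      exact key2 _ _ _ h1
    rw [← hdown _ S' rfl, ← hdown _ T' rfl] at h2
    refine h2.mono le_rfl ?_
    rintro y ⟨hy1, hy2⟩
    refine ⟨?_, ?_⟩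
    · show (y : G) ∈ (up S' : Subgroup G)
      rw [hup]; exact ⟨y, hy1, rfl⟩
    · show (y : G) ∈ (up T' : Subgroup G)
      rw [hup]; exact ⟨y, hy2, rfl⟩
  · intro heq
    apply hne
    rw [hdown _ S' rfl, hdown _ T' rfl, heq]
  · intro heq
    apply hbot
    rw [hup, hup, ← Subgroup.map_inf_eq _ _ _ (Subgroup.subtype_injective _), Subgroup.map_eq_bot_iff_of_injective _ (Subgroup.subtype_injective _)] at heq
    exact heq

end Cfsg.Agent.Lib.FunctorChain
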