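import Cfsg.Agent.Lib.AbelIndexP
import Cfsg.Agent.Lib.FusionEmb
import Cfsg.Agent.Lib.FusionCentOdd

/-! Essential subgroups over `p`-groups with an abelian subgroup of index `p` (helper87). -/

set_option autoImplicit false
set_option linter.unusedSectionVars false
open Cfsg Cfsg.FusionSystem Cfsg.Agent.Lib.FusionBasic Cfsg.Agent.Lib.FusionSat Cfsg.Agent.Lib.FusionNormal
  Cfsg.Agent.Lib.FusionAlperin Cfsg.Agent.Lib.AbelIndexP Cfsg.Agent.Lib

namespace Cfsg.Agent.Lib.FusionAbelIndex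

variable {Ω : Type*} [Group Ω] {S A P B : Subgroup Ω} {F : FusionSystem S} {x : Ω} {p : ℕ} [Finite S] [hp : Fact p.Prime]

theorem card_eq_relIndex {K H : Subgroup Ω} : Nat.card H = K.relIndex H * Nat.card (H ⊓ K : Subgroup Ω) := by
  rw [← SubgroupTools.card_mul_relIndex K H, inf_comm, mul_comm]

theorem card_le_mul (h : AI S A x p) {K : Subgroup Ω} (hK : K ≤ S) : Nat.card K ≤ p * Nat.card (K ⊓ A : Subgroup Ω) := by
  rw [card_eq_relIndex (K := A) (H := K)]
  apply Nat.mul_le_mul_right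
  have h1 : A.relIndex S = p := h.idx
  rw [← h1]
  exact Subgroup.relIndex_le_of_le_right hK (by rw [h1]; exact hp.out.ne_zero)

theorem card_eq_mul (h : AI S A x p) {K : Subgroup Ω} (hK : K ≤ S) (hKA : ¬ K ≤ A) :
    Nat.card K = p * Nat.card (K ⊓ A : Subgroup Ω) := by
  have h1 : A.relIndex S = p := h.idx
  have h2 : A.relIndex K ≤ p := by
    rw [← h1]
    exact Subgroup.relIndex_le_of_le_right hK (by rw [h1]; exact hp.out.ne_zero)
  have hfin := finite_of_le hK
  obtain ⟨k, hk⟩ := (isPGroup_of_le h.hS hK).index (A.subgroupOf K)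
  have hk' : A.relIndex K = p ^ k := hk
  rw [hk'] at h2
  have h3 : k ≤ 1 := by
    by_contra hcon
    push Not at hcon
    have h4 : p ^ 1 < p ^ k := Nat.pow_lt_pow_right hp.out.one_lt hcon
    rw [pow_one] at h4
    omega
  rw [card_eq_relIndex (K := A) (H := K), hk']
  interval_cases k
  · exfalso
    apply hKA
    rw [pow_zero] at hk'
    exact Subgroup.relIndex_eq_one.1 hk'
  · rw [pow_one]

theorem P_gen (h : AI S A x p) (hPS : P ≤ S) (hxP : x ∈ P) {v : Ω} (hv : v ∈ P) : ∃ b ∈ P ⊓ A, ∃ k : ℤ, v = b * x ^ k := by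
  obtain ⟨a, ha, k, hk⟩ := h.gen (hPS hv)
  refine ⟨a, ⟨?_, ha⟩, k, hk⟩
  have h1 : a = v * (x ^ k)⁻¹ := by rw [hk]; group
  rw [h1]
  exact P.mul_mem hv (P.inv_mem (P.zpow_mem hxP k))

theorem mem_N_iff (h : AI S A x p) (hPS : P ≤ S) (hxP : x ∈ P) {n : Ω} (hn : n ∈ A) :
    n ∈ Subgroup.normalizer (P : Set Ω) ↔ n * x * n⁻¹ * x⁻¹ ∈ P := by
  constructor
  · intro h1
    exact P.mul_mem ((Subgroup.mem_normalizer_iff.1 h1 x).1 hxP) (P.inv_mem hxP)
  · intro h1
    have := finite_of_le hPS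
    refine FusionGrp.mem_normalizer_of_conj_mem fun v hv => ?_
    obtain ⟨b, hb, k, rfl⟩ := P_gen h hPS hxP hv
    have h2 : n * (b * x ^ k) * n⁻¹ = b * ((n * x * n⁻¹ * x⁻¹) * x) ^ k := by
      have h3 : (n * x * n⁻¹ * x⁻¹) * x = n * x * n⁻¹ := by group
      rw [h3, conj_zpow]
      have h4 := h.comm n hn b hb.2
      calc n * (b * x ^ k) * n⁻¹ = (n * b) * x ^ k * n⁻¹ := by group
        _ = b * (n * x ^ k * n⁻¹) := by rw [h4]; group
    rw [h2]
    exact P.mul_mem hb.1 (P.zpow_mem (P.mul_mem h1 hxP) k)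

/-- the order of `N_A(P)` -/
theorem card_NA (h : AI S A x p) (hPS : P ≤ S) (hxP : x ∈ P) (hZP : centralizerIn S S ≤ P) :
    Nat.card (normalizerIn S P ⊓ A : Subgroup Ω) = Nat.card (h.C ⊓ P : Subgroup Ω) * Nat.card (centralizerIn S S) := by
  have hle : normalizerIn S P ⊓ A ≤ A := inf_le_right
  have h1 := SubgroupTools.card_map_mul_card_inf_ker h.D ((normalizerIn S P ⊓ A).subgroupOf A)
  rw [Nat.card_congr (Subgroup.subgroupOfEquivOfLe hle).toEquiv] at h1
  rw [← h1]
  congr 1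
  · have h2 : (((normalizerIn S P ⊓ A).subgroupOf A).map h.D).map A.subtype = h.C ⊓ P := by
      ext y
      constructor
      · rintro ⟨_, ⟨a, ha, rfl⟩, rfl⟩
        have ha' := (Subgroup.mem_subgroupOf.1 ha)
        exact ⟨h.mem_C.2 ⟨a, a.2, rfl⟩, (mem_N_iff h hPS hxP a.2).1 ha'.1.2⟩
      · rintro ⟨hy, hyP⟩
        obtain ⟨a, ha, rfl⟩ := h.mem_C.1 hy
        refine ⟨h.D ⟨a, ha⟩, ⟨⟨a, ha⟩, ?_, rfl⟩, rfl⟩
        exact Subgroup.mem_subgroupOf.2 ⟨⟨h.le ha, (mem_N_iff h hPS hxP ha).2 hyP⟩, ha⟩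
    rw [← h2]
    exact (Nat.card_congr (Subgroup.equivMapOfInjective _ _ A.subtype_injective).toEquiv)
  · have h3 : (normalizerIn S P ⊓ A).subgroupOf A ⊓ h.D.ker = (centralizerIn S S).subgroupOf A := by
      rw [h.ker]
      apply le_antisymm inf_le_right
      refine le_inf ?_ le_rfl
      intro a ha
      rw [Subgroup.mem_subgroupOf] at ha ⊢
      exact ⟨⟨h.le a.2, Subgroup.le_normalizer (hZP ha)⟩, a.2⟩
    rw [h3]
    exact Nat.card_congr (Subgroup.subgroupOfEquivOfLe h.Z_le).toEquiv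

theorem mulP (h : AI S A x p) {b e : Ω} (hb : b ∈ centralizerIn S S) (he : e ∈ centralizerIn S S) (k : ℤ) :
    b * (e * x) ^ k = e ^ k * (b * x ^ k) := by
  have h1 : Commute e x := ((mem_Z_iff.1 he).2 x h.mem).symm
  have h2 : Commute b (e ^ k) := ((mem_Z_iff.1 hb).2 _ (Subgroup.zpow_mem _ he.1 k)).symm
  rw [h1.mul_zpow, ← mul_assoc, h2.eq, mul_assoc]

/-- automorphisms of an abelian `P = Z(S)⟨x⟩` induced by `N_A(P)` -/
theorem transvection (h : AI S A x p) (hPS : P ≤ S) (hxP : x ∈ P) (hZP : centralizerIn S S ≤ P)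
    (hPA : P ⊓ A ≤ centralizerIn S S) {e : Ω} (heC : e ∈ h.C) (heZ : e ∈ centralizerIn S S) (he1 : e ≠ 1) :
    ∃ t ∈ autInducedBy S P, t ≠ 1 ∧ (∀ v : P, ∃ k : ℤ, ((t v : P) : Ω) = e ^ k * v) ∧
      ∀ v : P, (v : Ω) ∈ centralizerIn S S → t v = v := by
  obtain ⟨n, hn, rfl⟩ := h.mem_C.1 heC
  have hnN := (mem_N_iff h hPS hxP hn).2 (hZP heZ)
  have hZfix : ∀ v : P, (v : Ω) ∈ centralizerIn S S → conjAut P n hnN v = v := by
    intro v hv
    refine Subtype.ext ?_
    rw [conjAut_apply, (mem_Z_iff.1 hv).2 n (h.le hn)]; group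
  refine ⟨conjAut P n hnN, conjAut_mem_autInducedBy hnN (h.le hn), ?_, ?_, hZfix⟩
  · intro h1
    apply he1
    have h2 := conjAut_apply n hnN (⟨x, hxP⟩ : P)
    rw [h1] at h2
    have h3 : x = n * x * n⁻¹ := h2
    rw [← h3, mul_inv_cancel]
  · intro v
    obtain ⟨b, hb, k, hk⟩ := P_gen h hPS hxP v.2
    have hbZ := hPA hb
    refine ⟨k, ?_⟩
    rw [conjAut_apply, hk, ← mulP h hbZ heZ]
    have h3 : (n * x * n⁻¹ * x⁻¹) * x = n * x * n⁻¹ := by group
    rw [h3, conj_zpow]
    have h4 := h.comm n hn b hb.2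
    calc n * (b * x ^ k) * n⁻¹ = (n * b) * x ^ k * n⁻¹ := by group
      _ = b * (n * x ^ k * n⁻¹) := by rw [h4]; group

/-- the abelian case: `|[A,x] ∩ Z(S)| ≤ p` -/
theorem card_E_le (hF : F.IsSaturated p) (h : AI S A x p) (hP : F.IsEssential p P) (hxP : x ∈ P)
    (hPA : P ⊓ A ≤ centralizerIn S S) : Nat.card (h.C ⊓ centralizerIn S S : Subgroup Ω) ≤ p := by
  have hPS := hP.1.1
  have hfinP : Finite P := finite_of_le hPS
  have hfinZ : Finite (centralizerIn S S) := finite_of_le (centralizerIn_le S S)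
  have hcen := hP.1.2 P (isConj_refl F hPS)
  have hZP : centralizerIn S S ≤ P := (inf_le_inf_left S (Subgroup.centralizer_le hPS)).trans hcen
  have hPAe : P ⊓ A = centralizerIn S S := le_antisymm hPA (le_inf hZP h.Z_le)
  have hcP : Nat.card P = p * Nat.card (centralizerIn S S) := by
    rw [card_eq_mul h hPS (fun h1 => h.nmem (h1 hxP)), hPAe]
  have hab : ∀ u ∈ P, ∀ v ∈ P, u * v = v * u := by
    intro u hu v hv
    obtain ⟨b, hb, k, rfl⟩ := P_gen h hPS hxP hu
    obtain ⟨c, hc, l, rfl⟩ := P_gen h hPS hxP hv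
    have hbZ := hPA hb
    have hcZ := hPA hc
    have h1 : (c * x ^ l) * b = b * (c * x ^ l) := (mem_Z_iff.1 hbZ).2 _ (hPS hv)
    have h2 : x ^ k * c = c * x ^ k := (mem_Z_iff.1 hcZ).2 _ (S.zpow_mem h.mem k)
    calc b * x ^ k * (c * x ^ l) = b * (x ^ k * c) * x ^ l := by group
      _ = b * (c * x ^ l) * x ^ k := by rw [h2]; group
      _ = c * x ^ l * (b * x ^ k) := by rw [← h1]; group
  by_contra hcon
  push Not at hcon
  obtain ⟨g, hg, hnc⟩ := FusionEmb.exists_not_commute h.hS hF hP hab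
  have haux : ∀ γ : MulAut P, ∃ e ∈ h.C ⊓ centralizerIn S S, e ≠ 1 ∧ ∃ z : P, (z : Ω) ∈ centralizerIn S S ∧
      ((γ z : P) : Ω) = e := by
    intro γ
    obtain ⟨K, hK⟩ : ∃ K, K = ((centralizerIn S S).subgroupOf P).map γ.toMonoidHom := ⟨_, rfl⟩
    obtain ⟨E, hE⟩ : ∃ E, E = (h.C ⊓ centralizerIn S S).subgroupOf P := ⟨_, rfl⟩
    have hcE : Nat.card E = Nat.card (h.C ⊓ centralizerIn S S : Subgroup Ω) := by
      rw [hE]; exact Nat.card_congr (Subgroup.subgroupOfEquivOfLe (inf_le_right.trans hZP)).toEquiv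
    have hcK : Nat.card K = Nat.card (centralizerIn S S) := by
      rw [hK, ← Nat.card_congr (Subgroup.equivMapOfInjective _ _ γ.injective).toEquiv]
      exact Nat.card_congr (Subgroup.subgroupOfEquivOfLe hZP).toEquiv
    have hKi : K.index = p := by
      have h1 := K.index_mul_card
      rw [hcK, hcP] at h1
      exact Nat.eq_of_mul_eq_mul_right Nat.card_pos h1
    have h2 : K.relIndex E ≤ p := by
      have h3 := Subgroup.relIndex_le_of_le_right (H := K) (le_top : E ≤ ⊤) (by rw [Subgroup.relIndex_top_right, hKi]; exact hp.out.ne_zero)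
      rwa [Subgroup.relIndex_top_right, hKi] at h3
    have h3 : E ⊓ K ≠ ⊥ := by
      intro h4
      have h5 := card_eq_relIndex (K := K) (H := E)
      rw [h4, Subgroup.card_bot, mul_one, hcE] at h5
      omega
    obtain ⟨⟨v, hv⟩, hv1⟩ := Subgroup.ne_bot_iff_exists_ne_one.1 h3
    have hvE : v ∈ E := (Subgroup.mem_inf.1 hv).1
    have hvK : v ∈ K := (Subgroup.mem_inf.1 hv).2
    rw [hE, Subgroup.mem_subgroupOf] at hvE
    rw [hK] at hvK
    obtain ⟨z, hz, hzv⟩ := hvK
    refine ⟨_, hvE, ?_, z, Subgroup.mem_subgroupOf.1 hz, congrArg Subtype.val hzv⟩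
    intro h6
    exact hv1 (Subtype.ext (Subtype.ext h6))
  obtain ⟨e, ⟨heC, heZ⟩, he1, z₁, hz₁, hez⟩ := haux g
  obtain ⟨f, ⟨hfC, hfZ⟩, hf1, z₂, hz₂, hfz⟩ := haux g⁻¹
  obtain ⟨t, ht, ht1, htv, htz⟩ := transvection h hPS hxP hZP hPA heC heZ he1
  obtain ⟨s, hs, hs1, hsv, hsz⟩ := transvection h hPS hxP hZP hPA hfC hfZ hf1
  apply hnc t ht s hs ht1 hs1
  obtain ⟨e', he'⟩ : ∃ e' : P, (e' : Ω) = e := ⟨⟨e, hZP heZ⟩, rfl⟩
  obtain ⟨f', hf'⟩ : ∃ f' : P, (f' : Ω) = f := ⟨⟨f, hZP hfZ⟩, rfl⟩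
  have hge : g z₁ = e' := Subtype.ext (by rw [hez, he'])
  have hgf : g⁻¹ z₂ = f' := Subtype.ext (by rw [hfz, hf'])
  have hgf' : g f' = z₂ := by rw [← hgf, ← MulAut.mul_apply, mul_inv_cancel]; rfl
  have hge' : g⁻¹ e' = z₁ := by rw [← hge, ← MulAut.mul_apply, inv_mul_cancel]; rfl
  have htv' : ∀ v : P, ∃ k : ℤ, t v = e' ^ k * v := by
    intro v
    obtain ⟨k, hk⟩ := htv v
    exact ⟨k, Subtype.ext (by rw [hk]; push_cast; rw [he'])⟩
  have hsv' : ∀ v : P, ∃ k : ℤ, s v = f' ^ k * v := by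
    intro v
    obtain ⟨k, hk⟩ := hsv v
    exact ⟨k, Subtype.ext (by rw [hk]; push_cast; rw [hf'])⟩
  have hcommP : ∀ u v : P, u * v = v * u := fun u v => Subtype.ext (hab u u.2 v v.2)
  refine MulEquiv.ext fun v => ?_
  obtain ⟨j, hj⟩ := htv' v
  obtain ⟨k, hk⟩ := hsv' (g⁻¹ v)
  have e1 : (g * s * g⁻¹) v = z₂ ^ k * v := by
    rw [MulAut.mul_apply, MulAut.mul_apply, hk, map_mul, map_zpow, hgf', ← MulAut.mul_apply, mul_inv_cancel]; rfl
  have e2 : (g * s * g⁻¹) e' = e' := by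
    rw [MulAut.mul_apply, MulAut.mul_apply, hge', hsz z₁ hz₁, hge]
  have e3 : (t * (g * s * g⁻¹)) v = z₂ ^ k * (e' ^ j * v) := by
    rw [MulAut.mul_apply, e1, map_mul, map_zpow, htz z₂ hz₂, hj]
  have e5 : ((g * s * g⁻¹) * t) v = (g * s * g⁻¹) (t v) := rfl
  rw [e3]
  have e6 : ((g * s * g⁻¹) * t) v = e' ^ j * (z₂ ^ k * v) := by
    rw [e5, hj, map_mul, map_zpow, e2, e1]
  rw [e6, ← mul_assoc, ← mul_assoc, hcommP (z₂ ^ k) (e' ^ j)]

theorem mem_Z2_iff {u : Ω} : u ∈ (Subgroup.upperCentralSeries ↥S 2).map S.subtype ↔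
    u ∈ S ∧ ∀ s ∈ S, u * s * u⁻¹ * s⁻¹ ∈ centralizerIn S S := by
  constructor
  · rintro ⟨v, hv, rfl⟩
    refine ⟨v.2, fun s hs => ?_⟩
    have h1 := Subgroup.mem_upperCentralSeries_succ_iff.1 hv ⟨s, hs⟩
    rw [Subgroup.upperCentralSeries_one, ← FusionCentSq.center_eq, commutatorElement_def] at h1
    exact Subgroup.mem_subgroupOf.1 h1
  · rintro ⟨hu, h1⟩
    refine ⟨⟨u, hu⟩, Subgroup.mem_upperCentralSeries_succ_iff.2 fun s => ?_, rfl⟩
    rw [Subgroup.upperCentralSeries_one, ← FusionCentSq.center_eq, commutatorElement_def]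
    exact Subgroup.mem_subgroupOf.2 (h1 s s.2)

/-- elements of `A` whose commutator with `x` is central lie in the second centre -/
theorem mem_Z2_of (h : AI S A x p) {b : Ω} (hb : b ∈ A) (hD : b * x * b⁻¹ * x⁻¹ ∈ centralizerIn S S) :
    b ∈ (Subgroup.upperCentralSeries ↥S 2).map S.subtype := by
  rw [mem_Z2_iff]
  refine ⟨h.le hb, fun s hs => ?_⟩
  obtain ⟨a, ha, k, rfl⟩ := h.gen hs
  obtain ⟨c, hc⟩ : ∃ c, c = b * x * b⁻¹ * x⁻¹ := ⟨_, rfl⟩
  rw [← hc] at hD
  have h1 : Commute c x := ((mem_Z_iff.1 hD).2 x h.mem).symm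
  have h2 : b * x ^ k * b⁻¹ = c ^ k * x ^ k := by
    rw [← conj_zpow, ← h1.mul_zpow, hc]
    congr 1; group
  have h3 : b * (a * x ^ k) * b⁻¹ * (a * x ^ k)⁻¹ = c ^ k := by
    have h4 := h.comm b hb a ha
    have h5 := (mem_Z_iff.1 (Subgroup.zpow_mem _ hD k)).2 a (h.le ha)
    calc b * (a * x ^ k) * b⁻¹ * (a * x ^ k)⁻¹ = (b * a) * x ^ k * b⁻¹ * (x ^ k)⁻¹ * a⁻¹ := by group
      _ = a * (b * x ^ k * b⁻¹) * (x ^ k)⁻¹ * a⁻¹ := by rw [h4]; group
      _ = (a * c ^ k) * a⁻¹ := by rw [h2]; group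
      _ = c ^ k := by rw [h5]; group
  rw [h3]
  exact Subgroup.zpow_mem _ hD k

/-- elements acting trivially on an invariant chain of the essential subgroup lie in it -/
theorem mem_of_chain (hS : IsPGroup p S) (hP : F.IsEssential p P) {L : Subgroup Ω}
    (hinv : ∀ α ∈ F.autGroup P, ∀ v : P, (v : Ω) ∈ L → ((α v : P) : Ω) ∈ L) {u : Ω} (hu : u ∈ S)
    (hun : u ∈ Subgroup.normalizer (P : Set Ω)) (h1 : ∀ v ∈ P, v⁻¹ * (u * v * u⁻¹) ∈ L)
    (h2 : ∀ v ∈ L, u * v * u⁻¹ = v) : u ∈ P := by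
  have hPS := hP.1.1
  have hcen := hP.1.2 P (isConj_refl F hPS)
  have hfinP : Finite P := finite_of_le hPS
  have h3 : conjAut P u hun ∈ Inn P := by
    refine mem_inn_of_stabilizes_chain hS (isRadical_of_essential hS hP)
      (fun i => if i = 0 then P else if i = 1 then L else ⊥) 2 (by simp) (by simp) ?_ (conjAut_mem_autGroup hPS hun hu) ?_
    · intro j α hα v hv
      by_cases hj0 : j = 0
      · subst hj0; simp only [if_true]; exact (α v).2
      · by_cases hj1 : j = 1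
        · subst hj1
          simp only [one_ne_zero, if_false, if_true] at hv ⊢
          exact hinv α hα v hv
        · simp only [hj0, hj1, if_false] at hv ⊢
          rw [Subgroup.mem_bot] at hv ⊢
          have h4 : v = 1 := Subtype.ext hv
          rw [h4, map_one]; rfl
    · intro j hj v hv
      have hj' : j = 0 ∨ j = 1 := by omega
      rcases hj' with rfl | rfl
      · simp only [zero_add, one_ne_zero, if_false, if_true]
        rw [conjAut_apply]
        exact h1 v v.2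
      · simp only [one_ne_zero, if_false, if_true] at hv
        rw [conjAut_apply, h2 v hv]
        have h4 : (v : Ω)⁻¹ * v = 1 := inv_mul_cancel _
        rw [h4]; exact Subgroup.one_mem _
  exact mem_of_conj_mem_inn hcen hu hun h3 hPS

/-- the data of a nonabelian essential subgroup `P ≠ A` -/
theorem nonab (hF : F.IsSaturated p) (h : AI S A x p) (hP : F.IsEssential p P) (hxP : x ∈ P)
    (hPA : ¬ P ⊓ A ≤ centralizerIn S S) :
    P ⊓ A = (Subgroup.upperCentralSeries ↥S 2).map S.subtype ∧ Nat.card P ≤ p ^ 2 * Nat.card (centralizerIn S S) := by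
  have hPS := hP.1.1
  have hlt := FusionEss.lt_of_essential h.hS hF hP
  have hfinP : Finite P := finite_of_le hPS
  have hfinZ : Finite (centralizerIn S S) := finite_of_le (centralizerIn_le S S)
  have hcen := hP.1.2 P (isConj_refl F hPS)
  have hZP : centralizerIn S S ≤ P := (inf_le_inf_left S (Subgroup.centralizer_le hPS)).trans hcen
  have hPp : IsPGroup p P := isPGroup_of_le h.hS hPS
  have hPnA : ¬ P ≤ A := fun h1 => h.nmem (h1 hxP)
  obtain ⟨b₀, hb₀, hb₀Z⟩ : ∃ b ∈ P ⊓ A, b ∉ centralizerIn S S := by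
    by_contra hcon
    push Not at hcon
    exact hPA hcon
  -- the centre of `P`
  have hZZ : centralizerIn P P = centralizerIn S S := by
    apply le_antisymm
    · intro z hz
      have hz' := mem_Z_iff.1 hz
      by_cases hzA : z ∈ A
      · exact h.mem_Z hzA (hz'.2 x hxP)
      · exfalso
        apply hb₀Z
        exact (h.other (hPS hz'.1) hzA).mem_Z hb₀.2 (hz'.2 b₀ hb₀.1).symm
    · intro z hz
      rw [mem_Z_iff] at hz ⊢
      exact ⟨hZP (mem_Z_iff.2 hz), fun s hs => hz.2 s (hPS hs)⟩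
  have hcZP : Nat.card (Subgroup.center P) = Nat.card (centralizerIn S S) := by
    rw [← FusionCentSq.center_eq, hZZ]
    exact Nat.card_congr (Subgroup.subgroupOfEquivOfLe hZP).toEquiv
  have hcP := card_eq_mul h hPS hPnA
  -- the centre has index at most `p²`
  have hidx : Nat.card P ≤ p ^ 2 * Nat.card (centralizerIn S S) := by
    by_contra hcon
    push Not at hcon
    have hinv : ∀ α : MulAut P, ∀ b : P, (b : Ω) ∈ A → ((α b : P) : Ω) ∈ A := by
      intro α b hb
      by_contra hy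
      obtain ⟨K, hK⟩ : ∃ K, K = ((P ⊓ A).subgroupOf P).map α.toMonoidHom := ⟨_, rfl⟩
      have hy' := h.other (hPS (α b).2) hy
      have hle : (P ⊓ A).subgroupOf P ⊓ K ≤ (centralizerIn S S).subgroupOf P := by
        intro m hm
        have hm1 := (Subgroup.mem_inf.1 hm).1
        have hm2 := (Subgroup.mem_inf.1 hm).2
        rw [hK] at hm2
        obtain ⟨b', hb', hbm⟩ := hm2
        have hbm' : α b' = m := hbm
        rw [Subgroup.mem_subgroupOf] at hm1
        rw [Subgroup.mem_subgroupOf]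
        refine hy'.mem_Z hm1.2 ?_
        have h1 : b * b' = b' * b := Subtype.ext (h.comm b hb b' (Subgroup.mem_subgroupOf.1 hb').2)
        have h2 := congrArg (fun v => ((α v : P) : Ω)) h1
        simp only [map_mul, hbm'] at h2
        exact h2
      have hcB : Nat.card ((P ⊓ A).subgroupOf P) = Nat.card (P ⊓ A : Subgroup Ω) :=
        Nat.card_congr (Subgroup.subgroupOfEquivOfLe inf_le_left).toEquiv
      have hcK : Nat.card K = Nat.card (P ⊓ A : Subgroup Ω) := by
        rw [hK, ← Nat.card_congr (Subgroup.equivMapOfInjective _ _ α.injective).toEquiv]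
        exact hcB
      have hfB : Finite (P ⊓ A : Subgroup Ω) := finite_of_le (inf_le_left.trans hPS)
      have hKi : K.index = p := by
        have h1 := K.index_mul_card
        rw [hcK, hcP] at h1
        exact Nat.eq_of_mul_eq_mul_right Nat.card_pos h1
      have h2 : K.relIndex ((P ⊓ A).subgroupOf P) ≤ p := by
        have h3 := Subgroup.relIndex_le_of_le_right (H := K) (le_top : (P ⊓ A).subgroupOf P ≤ ⊤)
          (by rw [Subgroup.relIndex_top_right, hKi]; exact hp.out.ne_zero)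
        rwa [Subgroup.relIndex_top_right, hKi] at h3
      have h3 := card_eq_relIndex (K := K) (H := (P ⊓ A).subgroupOf P)
      rw [hcB] at h3
      have h4 : Nat.card ((P ⊓ A).subgroupOf P ⊓ K : Subgroup P) ≤ Nat.card (centralizerIn S S) := by
        refine (Subgroup.card_le_of_le hle).trans ?_
        rw [Nat.card_congr (Subgroup.subgroupOfEquivOfLe hZP).toEquiv]
      have h5 : Nat.card (P ⊓ A : Subgroup Ω) ≤ p * Nat.card (centralizerIn S S) := by
        rw [h3]; exact Nat.mul_le_mul h2 h4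
      have h6 : Nat.card P ≤ p ^ 2 * Nat.card (centralizerIn S S) := by
        rw [hcP, pow_two, mul_assoc]; exact Nat.mul_le_mul_left _ h5
      omega
    have hN : P < normalizerIn S P := lt_normalizerIn h.hS le_rfl hlt
    obtain ⟨s, hs, hsP⟩ := SetLike.exists_of_lt hN
    obtain ⟨a, ha, k, hk⟩ := h.gen hs.1
    have hxk : x ^ k ∈ P := P.zpow_mem hxP k
    have haN : a ∈ Subgroup.normalizer (P : Set Ω) := by
      have h1 : a = s * (x ^ k)⁻¹ := by rw [hk]; group
      rw [h1]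
      exact Subgroup.mul_mem _ hs.2 (Subgroup.inv_mem _ (Subgroup.le_normalizer hxk))
    apply hsP
    rw [hk]
    refine P.mul_mem ?_ hxk
    refine mem_of_chain h.hS hP (L := P ⊓ A) ?_ (h.le ha) haN ?_ ?_
    · intro α _ v hv
      exact ⟨(α v).2, hinv α v hv.2⟩
    · intro v hv
      refine ⟨P.mul_mem (P.inv_mem hv) ((Subgroup.mem_normalizer_iff.1 haN v).1 hv), ?_⟩
      have h1 : v⁻¹ * (a * v * a⁻¹) = (v⁻¹ * a * v⁻¹⁻¹) * a⁻¹ := by group
      rw [h1]
      exact A.mul_mem (h.norm _ (S.inv_mem (hPS hv)) a ha) (A.inv_mem ha)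
    · intro v hv
      rw [h.comm a ha v hv.2]; group
  -- the commutators with `x` are central
  have hDZ : ∀ b ∈ P ⊓ A, b * x * b⁻¹ * x⁻¹ ∈ centralizerIn S S := by
    intro b hb
    have hci : (Subgroup.center P).index ≤ p ^ 2 := by
      have h1 := (Subgroup.center P).index_mul_card
      rw [hcZP] at h1
      rw [← h1] at hidx
      exact Nat.le_of_mul_le_mul_right hidx Nat.card_pos
    have h1 := CenterIndexSq.commutator_mem hPp hci ⟨b, hb.1⟩ ⟨x, hxP⟩
    rw [← FusionCentSq.center_eq, hZZ] at h1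
    exact Subgroup.mem_subgroupOf.1 h1
  refine ⟨le_antisymm (fun b hb => mem_Z2_of h hb.2 (hDZ b hb)) ?_, hidx⟩
  -- the second centre lies in `P`
  have hZ2P : (Subgroup.upperCentralSeries ↥S 2).map S.subtype ≤ P := by
    intro u hu
    rw [mem_Z2_iff] at hu
    have hconj : ∀ v ∈ P, v⁻¹ * (u * v * u⁻¹) ∈ centralizerIn S S := by
      intro v hv
      have h1 := hu.2 v (hPS hv)
      have h2 := (mem_Z_iff.1 h1).2 v⁻¹ (S.inv_mem (hPS hv))
      have h3 : v⁻¹ * (u * v * u⁻¹) = (v⁻¹ * (u * v * u⁻¹ * v⁻¹)) * v := by group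
      rw [h3, h2]
      have h4 : u * v * u⁻¹ * v⁻¹ * v⁻¹ * v = u * v * u⁻¹ * v⁻¹ := by group
      rw [h4]; exact h1
    have hun : u ∈ Subgroup.normalizer (P : Set Ω) := by
      refine FusionGrp.mem_normalizer_of_conj_mem fun v hv => ?_
      have h1 : u * v * u⁻¹ = v * (v⁻¹ * (u * v * u⁻¹)) := by group
      rw [h1]
      exact P.mul_mem hv (hZP (hconj v hv))
    refine mem_of_chain h.hS hP (L := centralizerIn S S) ?_ hu.1 hun hconj ?_
    · intro α _ v hv
      rw [← hZZ] at hv ⊢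
      rw [mem_Z_iff] at hv ⊢
      refine ⟨(α v).2, fun s hs => ?_⟩
      have h1 : (α⁻¹ ⟨s, hs⟩) * v = v * (α⁻¹ ⟨s, hs⟩) := Subtype.ext (hv.2 _ (α⁻¹ ⟨s, hs⟩).2)
      have h2 := congrArg (fun w => ((α w : P) : Ω)) h1
      simp only [map_mul] at h2
      rw [← MulAut.mul_apply, mul_inv_cancel] at h2
      exact h2
    · intro v hv
      rw [(mem_Z_iff.1 hv).2 u hu.1]; group
  refine le_inf hZ2P ?_
  intro y hy
  by_contra hyA
  have hy' := mem_Z2_iff.1 hy
  have h' := h.other hy'.1 hyA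
  have hCZ : h.C ≤ centralizerIn S S := by
    rw [← h.commutator_eq, h'.commutator_eq]
    intro c hc
    obtain ⟨a, ha, rfl⟩ := h'.mem_C.1 hc
    have h1 : a * y * a⁻¹ * y⁻¹ = (y * a * y⁻¹ * a⁻¹)⁻¹ := by group
    rw [h1]
    exact Subgroup.inv_mem _ (hy'.2 a (h.le ha))
  have hAP : A ≤ P := by
    intro a ha
    exact hZ2P (mem_Z2_of h ha (hCZ (h.mem_C.2 ⟨a, ha, rfl⟩)))
  apply hlt.ne
  apply le_antisymm hPS
  rw [← h.sup]
  exact sup_le hAP (Subgroup.zpowers_le.2 hxP)

theorem card_pow {K : Subgroup Ω} (hS : IsPGroup p S) (hK : K ≤ S) (hle : Nat.card K ≤ p) (h1 : K ≠ ⊥) :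
    Nat.card K = p := by
  have := finite_of_le hK
  obtain ⟨k, hk⟩ := IsPGroup.iff_card.1 (isPGroup_of_le hS hK)
  rw [hk] at hle ⊢
  have h3 : k ≤ 1 := by
    by_contra hcon
    push Not at hcon
    have h4 : p ^ 1 < p ^ k := Nat.pow_lt_pow_right hp.out.one_lt hcon
    rw [pow_one] at h4
    omega
  interval_cases k
  · exact absurd (Subgroup.eq_bot_of_card_eq _ (by rw [hk, pow_zero])) h1
  · rw [pow_one]

theorem index_eq (hS : IsPGroup p S) {K L : Subgroup Ω} (hKL : K < L) (hL : L ≤ S) (hle : Nat.card L ≤ p * Nat.card K) :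
    (K.subgroupOf L).index = p := by
  have := finite_of_le hL
  have := finite_of_le (hKL.le.trans hL)
  obtain ⟨k, hk⟩ := (isPGroup_of_le hS hL).index (K.subgroupOf L)
  have h1 := (K.subgroupOf L).index_mul_card
  rw [Nat.card_congr (Subgroup.subgroupOfEquivOfLe hKL.le).toEquiv, hk] at h1
  rw [← h1] at hle
  have h2 : p ^ k ≤ p := Nat.le_of_mul_le_mul_right hle Nat.card_pos
  rw [hk]
  have h3 : k ≤ 1 := by
    by_contra hcon
    push Not at hcon
    have h4 : p ^ 1 < p ^ k := Nat.pow_lt_pow_right hp.out.one_lt hcon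
    rw [pow_one] at h4
    omega
  interval_cases k
  · exfalso
    rw [pow_zero, one_mul] at h1
    exact hKL.ne (Subgroup.eq_of_le_of_card_ge hKL.le h1.ge)
  · rw [pow_one]

theorem main (hF : F.IsSaturated p) (h : AI S A x p) (hP : F.IsEssential p P) (hxP : x ∈ P)
    (huniq : ∀ B : Subgroup Ω, B ≤ S → IsMulCommutative ↥B → (B.subgroupOf S).index = p → B = A) :
    (Subgroup.upperCentralSeries ↥S 2).map S.subtype ≤ A ∧ Nat.card (h.C ⊓ centralizerIn S S : Subgroup Ω) = p ∧
      (P.subgroupOf (normalizerIn S P)).index = p := by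
  have hPS := hP.1.1
  have hlt := FusionEss.lt_of_essential h.hS hF hP
  have hfinP : Finite P := finite_of_le hPS
  have hfinZ : Finite (centralizerIn S S) := finite_of_le (centralizerIn_le S S)
  have hcen := hP.1.2 P (isConj_refl F hPS)
  have hZP : centralizerIn S S ≤ P := (inf_le_inf_left S (Subgroup.centralizer_le hPS)).trans hcen
  have hPnA : ¬ P ≤ A := fun h1 => h.nmem (h1 hxP)
  have hcP := card_eq_mul h hPS hPnA
  have hN : P < normalizerIn S P := lt_normalizerIn h.hS le_rfl hlt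
  have hcN := card_le_mul h (normalizerIn_le S P)
  rw [card_NA h hPS hxP hZP] at hcN
  have hEle : h.C ⊓ centralizerIn S S ≤ S := inf_le_right.trans (centralizerIn_le S S)
  have hCPfin : Finite (h.C ⊓ P : Subgroup Ω) := finite_of_le (inf_le_right.trans hPS)
  have hEfin : Finite (h.C ⊓ centralizerIn S S : Subgroup Ω) := finite_of_le hEle
  by_cases hPA : P ⊓ A ≤ centralizerIn S S
  · have hPAe : P ⊓ A = centralizerIn S S := le_antisymm hPA (le_inf hZP h.Z_le)
    have hCP : h.C ⊓ P = h.C ⊓ centralizerIn S S := by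
      apply le_antisymm
      · exact le_inf inf_le_left (le_trans (le_inf inf_le_right (inf_le_left.trans h.C_le)) hPA)
      · exact inf_le_inf_left _ hZP
    have hE := card_E_le hF h hP hxP hPA
    rw [hPAe] at hcP
    rw [hCP] at hcN
    have hEp : Nat.card (h.C ⊓ centralizerIn S S : Subgroup Ω) = p := by
      refine card_pow h.hS hEle hE ?_
      intro h1
      rw [h1, Subgroup.card_bot, one_mul, ← hcP] at hcN
      have h2 := FusionCentOdd.card_lt hN (finite_of_le (normalizerIn_le S P))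
      omega
    refine ⟨?_, hEp, ?_⟩
    · intro y hy
      by_contra hyA
      have hy' := mem_Z2_iff.1 hy
      have h' := h.other hy'.1 hyA
      have hCZ : h.C ≤ centralizerIn S S := by
        rw [← h.commutator_eq, h'.commutator_eq]
        intro c hc
        obtain ⟨a, ha, rfl⟩ := h'.mem_C.1 hc
        have h1 : a * y * a⁻¹ * y⁻¹ = (y * a * y⁻¹ * a⁻¹)⁻¹ := by group
        rw [h1]
        exact Subgroup.inv_mem _ (hy'.2 a (h.le ha))
      have hcA : Nat.card A = Nat.card P := by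
        have h1 := h.card_C
        rw [inf_eq_left.2 hCZ] at hEp
        rw [hEp, ← hcP] at h1
        exact h1.symm
      have hPA' : P = A := by
        refine huniq P hPS ⟨⟨fun u v => Subtype.ext ?_⟩⟩ ?_
        · obtain ⟨b, hb, k, hu⟩ := P_gen h hPS hxP u.2
          obtain ⟨c, hc, l, hv⟩ := P_gen h hPS hxP v.2
          show (u : Ω) * v = v * u
          have hbZ := hPA hb
          have hcZ := hPA hc
          have h1 : (c * x ^ l) * b = b * (c * x ^ l) := (mem_Z_iff.1 hbZ).2 _ (hv ▸ hPS v.2)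
          have h2 : x ^ k * c = c * x ^ k := (mem_Z_iff.1 hcZ).2 _ (S.zpow_mem h.mem k)
          rw [hu, hv]
          calc b * x ^ k * (c * x ^ l) = b * (x ^ k * c) * x ^ l := by group
            _ = b * (c * x ^ l) * x ^ k := by rw [h2]; group
            _ = c * x ^ l * (b * x ^ k) := by rw [← h1]; group
        · refine index_eq h.hS hlt le_rfl ?_
          rw [h.card, hcA]
      exact hPnA hPA'.le
    · refine index_eq h.hS hN (normalizerIn_le S P) ?_
      rw [hEp] at hcN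
      rw [hcP]; exact hcN
  · obtain ⟨hB, hidx⟩ := nonab hF h hP hxP hPA
    have hDZ : ∀ b ∈ P ⊓ A, b * x * b⁻¹ * x⁻¹ ∈ centralizerIn S S := by
      intro b hb
      rw [hB, mem_Z2_iff] at hb
      exact hb.2 x h.mem
    obtain ⟨DB, hDB⟩ : ∃ DB, DB = ((P ⊓ A).subgroupOf A).map h.D := ⟨_, rfl⟩
    have hDBe : DB.map A.subtype = h.C ⊓ centralizerIn S S := by
      rw [hDB]
      ext c
      constructor
      · rintro ⟨_, ⟨b, hb, rfl⟩, rfl⟩
        have hb' := Subgroup.mem_subgroupOf.1 hb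
        exact ⟨h.mem_C.2 ⟨b, b.2, rfl⟩, hDZ b hb'⟩
      · rintro ⟨hc, hcZ⟩
        obtain ⟨a, ha, rfl⟩ := h.mem_C.1 hc
        have h1 := mem_Z2_of h ha hcZ
        rw [← hB] at h1
        exact ⟨h.D ⟨a, ha⟩, ⟨⟨a, ha⟩, Subgroup.mem_subgroupOf.2 h1, rfl⟩, rfl⟩
    have hcDB : Nat.card DB = Nat.card (h.C ⊓ centralizerIn S S : Subgroup Ω) := by
      rw [← hDBe]
      exact (Nat.card_congr (Subgroup.equivMapOfInjective _ _ A.subtype_injective).toEquiv)
    have hcB : Nat.card (h.C ⊓ centralizerIn S S : Subgroup Ω) * Nat.card (centralizerIn S S) =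
        Nat.card (P ⊓ A : Subgroup Ω) := by
      have h1 := SubgroupTools.card_map_mul_card_inf_ker h.D ((P ⊓ A).subgroupOf A)
      rw [← hDB, hcDB, Nat.card_congr (Subgroup.subgroupOfEquivOfLe inf_le_right).toEquiv] at h1
      have h3 : (P ⊓ A).subgroupOf A ⊓ h.D.ker = (centralizerIn S S).subgroupOf A := by
        rw [h.ker]
        apply le_antisymm inf_le_right
        refine le_inf ?_ le_rfl
        intro a ha
        rw [Subgroup.mem_subgroupOf] at ha ⊢
        exact ⟨hZP ha, a.2⟩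
      rw [h3, Nat.card_congr (Subgroup.subgroupOfEquivOfLe h.Z_le).toEquiv] at h1
      exact h1
    have hEp : Nat.card (h.C ⊓ centralizerIn S S : Subgroup Ω) = p := by
      refine card_pow h.hS hEle ?_ ?_
      · rw [hcP, ← hcB, pow_two, mul_assoc] at hidx
        have h1 := Nat.le_of_mul_le_mul_left hidx hp.out.pos
        exact Nat.le_of_mul_le_mul_right h1 Nat.card_pos
      · intro h1
        rw [h1, Subgroup.card_bot, one_mul] at hcB
        have hfB : Finite (P ⊓ A : Subgroup Ω) := finite_of_le (inf_le_left.trans hPS)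
        have h2 : centralizerIn S S = P ⊓ A :=
          Subgroup.eq_of_le_of_card_ge (le_inf hZP h.Z_le) hcB.ge
        exact hPA h2.ge
    refine ⟨hB ▸ inf_le_right, hEp, ?_⟩
    refine index_eq h.hS hN (normalizerIn_le S P) ?_
    -- `|C ∩ P| ≤ p²`
    have hCP : Nat.card (h.C ⊓ P : Subgroup Ω) ≤ p * p := by
      have hCPA : h.C ⊓ P ≤ A := inf_le_left.trans h.C_le
      have h1 := SubgroupTools.card_map_mul_card_inf_ker h.D ((h.C ⊓ P).subgroupOf A)
      rw [Nat.card_congr (Subgroup.subgroupOfEquivOfLe hCPA).toEquiv] at h1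
      rw [← h1]
      have hfA : Finite A := finite_of_le h.le
      refine Nat.mul_le_mul ?_ ?_
      · refine le_trans ?_ (hcDB.trans hEp).le
        rw [hDB]
        refine Subgroup.card_le_of_le (Subgroup.map_mono ?_)
        exact Subgroup.comap_mono (le_inf inf_le_right hCPA)
      · have h3 : (h.C ⊓ P).subgroupOf A ⊓ h.D.ker ≤ (h.C ⊓ centralizerIn S S).subgroupOf A := by
          rw [h.ker]
          intro a ha
          exact Subgroup.mem_subgroupOf.2 ⟨(Subgroup.mem_subgroupOf.1 (Subgroup.mem_inf.1 ha).1).1, Subgroup.mem_subgroupOf.1 (Subgroup.mem_inf.1 ha).2⟩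
        refine (Subgroup.card_le_of_le h3).trans ?_
        rw [Nat.card_congr (Subgroup.subgroupOfEquivOfLe (inf_le_left.trans h.C_le)).toEquiv, hEp]
    calc Nat.card (normalizerIn S P) ≤ p * (Nat.card (h.C ⊓ P : Subgroup Ω) * Nat.card (centralizerIn S S)) := hcN
      _ ≤ p * (p * p * Nat.card (centralizerIn S S)) := Nat.mul_le_mul_left _ (Nat.mul_le_mul_right _ hCP)
      _ = p * Nat.card P := by rw [hcP, ← hcB, hEp]; ring

/-- the shape of the essential subgroups -/
theorem shape (hF : F.IsSaturated p) (hS : IsPGroup p S) (hna : ¬ IsMulCommutative ↥S)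
    (hA : A ≤ S ∧ IsMulCommutative ↥A ∧ (A.subgroupOf S).index = p)
    (huniq : ∀ B : Subgroup Ω, B ≤ S → IsMulCommutative ↥B → (B.subgroupOf S).index = p → B = A)
    (hP : F.IsEssential p P) :
    (P = A ∨ (∃ x ∈ S, x ∉ A ∧ P = (S ⊓ Subgroup.centralizer (S : Set Ω)) ⊔ Subgroup.zpowers x) ∨
      (((Subgroup.upperCentralSeries ↥S 2).map S.subtype) ≤ A ∧ ∃ x ∈ S, x ∉ A ∧
        P = ((Subgroup.upperCentralSeries ↥S 2).map S.subtype) ⊔ Subgroup.zpowers x)) ∧
      (P.subgroupOf (S ⊓ Subgroup.normalizer (P : Set Ω))).index = p := by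
  obtain ⟨hAS, hAc, hAi⟩ := hA
  have hcomm : ∀ a ∈ A, ∀ b ∈ A, a * b = b * a := fun a ha b hb =>
    congrArg Subtype.val (hAc.is_comm.comm (⟨a, ha⟩ : A) ⟨b, hb⟩)
  have hnab : ¬ ∀ u ∈ S, ∀ v ∈ S, u * v = v * u := fun h1 =>
    hna ⟨⟨fun u v => Subtype.ext (h1 u u.2 v v.2)⟩⟩
  have hPS := hP.1.1
  have hcen := hP.1.2 P (isConj_refl F hPS)
  by_cases hPA : P ≤ A
  · have hAP : A ≤ P := by
      intro a ha
      apply hcen
      refine mem_centralizerIn.2 ⟨hAS ha, mem_centralizer_iff'.2 fun v hv => ?_⟩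
      rw [hcomm a ha v (hPA hv)]; group
    have hPeq := le_antisymm hPA hAP
    subst hPeq
    refine ⟨Or.inl rfl, ?_⟩
    have hn := PGroupRankThree.normal_of_index_eq_prime hS hAi
    have hN : S ⊓ Subgroup.normalizer (P : Set Ω) = S := by
      refine inf_eq_left.2 fun s hs => ?_
      have := finite_of_le hPS
      refine FusionGrp.mem_normalizer_of_conj_mem fun v hv => ?_
      exact Subgroup.mem_subgroupOf.1 (hn.conj_mem ⟨v, hPS hv⟩ (Subgroup.mem_subgroupOf.2 hv) ⟨s, hs⟩)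
    rw [hN]; exact hAi
  · obtain ⟨x, hxP, hxA⟩ := Set.not_subset.1 hPA
    have h : AI S A x p := ⟨hS, hAS, hcomm, hAi, hPS hxP, hxA, hnab⟩
    obtain ⟨h1, h2, h3⟩ := main hF h hP hxP huniq
    refine ⟨Or.inr ?_, h3⟩
    have hZP : centralizerIn S S ≤ P := (inf_le_inf_left S (Subgroup.centralizer_le hPS)).trans hcen
    have hsup : P = P ⊓ A ⊔ Subgroup.zpowers x := by
      apply le_antisymm
      · intro v hv
        obtain ⟨b, hb, k, rfl⟩ := P_gen h hPS hxP hv
        exact Subgroup.mul_mem _ (Subgroup.mem_sup_left hb) (Subgroup.mem_sup_right ⟨k, rfl⟩)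
      · exact sup_le inf_le_left (Subgroup.zpowers_le.2 hxP)
    by_cases hPA' : P ⊓ A ≤ centralizerIn S S
    · left
      refine ⟨x, hPS hxP, hxA, ?_⟩
      have hPAe : P ⊓ A = centralizerIn S S := le_antisymm hPA' (le_inf hZP h.Z_le)
      rw [hPAe] at hsup
      exact hsup
    · right
      refine ⟨h1, x, hPS hxP, hxA, ?_⟩
      obtain ⟨hB, -⟩ := nonab hF h hP hxP hPA'
      rw [hB] at hsup
      exact hsup

/-- iterated commutators -/
theorem lcs_card (h : AI S A x p) (hE : Nat.card (h.C ⊓ centralizerIn S S : Subgroup Ω) = p) (i : ℕ) :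
    ∃ L : Subgroup Ω, L ≤ A ∧ (1 ≤ i → L ≤ h.C) ∧ L ≤ Subgroup.lowerCentralSeries S i ∧
      Nat.card A ≤ Nat.card L * (Nat.card (centralizerIn S S) * p ^ (i - 1)) ∧ (i = 0 → L = A) := by
  induction i with
  | zero => exact ⟨A, le_rfl, by omega, h.le, by
      rw [Nat.zero_sub, pow_zero, mul_one]
      have : Finite (centralizerIn S S) := finite_of_le (centralizerIn_le S S)
      exact Nat.le_mul_of_pos_right _ Nat.card_pos, fun _ => rfl⟩
  | succ i ih =>
    obtain ⟨L, hLA, hLC, hLl, hLc, hL0⟩ := ih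
    refine ⟨((L.subgroupOf A).map h.D).map A.subtype, Subgroup.map_subtype_le _, ?_, ?_, ?_, by omega⟩
    · rintro - _ ⟨_, ⟨a, ha, rfl⟩, rfl⟩
      exact h.mem_C.2 ⟨a, a.2, rfl⟩
    · rintro _ ⟨_, ⟨a, ha, rfl⟩, rfl⟩
      rw [Subgroup.lowerCentralSeries_succ]
      have h1 := Subgroup.commutator_mem_commutator (hLl (Subgroup.mem_subgroupOf.1 ha)) h.mem
      rw [commutatorElement_def] at h1
      exact h1
    · have h1 := SubgroupTools.card_map_mul_card_inf_ker h.D (L.subgroupOf A)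
      rw [Nat.card_congr (Subgroup.subgroupOfEquivOfLe hLA).toEquiv] at h1
      have h2 : Nat.card (((L.subgroupOf A).map h.D).map A.subtype) = Nat.card ((L.subgroupOf A).map h.D) :=
        (Nat.card_congr (Subgroup.equivMapOfInjective _ _ A.subtype_injective).toEquiv).symm
      rw [h2]
      have hfA : Finite A := finite_of_le h.le
      rcases Nat.eq_zero_or_pos i with rfl | hi
      · rw [hL0 rfl] at h1 ⊢
        have h3 : A.subgroupOf A ⊓ h.D.ker = (centralizerIn S S).subgroupOf A := by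
          rw [h.ker, Subgroup.subgroupOf_self, top_inf_eq]
        rw [h3, Nat.card_congr (Subgroup.subgroupOfEquivOfLe h.Z_le).toEquiv] at h1
        rw [← h1]
        simp
      · have h3 : (L.subgroupOf A) ⊓ h.D.ker ≤ (h.C ⊓ centralizerIn S S).subgroupOf A := by
          rw [h.ker]
          intro a ha
          exact Subgroup.mem_subgroupOf.2 ⟨hLC hi (Subgroup.mem_subgroupOf.1 (Subgroup.mem_inf.1 ha).1),
            Subgroup.mem_subgroupOf.1 (Subgroup.mem_inf.1 ha).2⟩
        have h4 := Subgroup.card_le_of_le h3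
        rw [Nat.card_congr (Subgroup.subgroupOfEquivOfLe (inf_le_left.trans h.C_le)).toEquiv, hE] at h4
        have h5 : Nat.card L ≤ Nat.card ((L.subgroupOf A).map h.D) * p := by
          rw [← h1]; exact Nat.mul_le_mul_left _ h4
        refine hLc.trans ?_
        have h6 : p ^ (i + 1 - 1) = p * p ^ (i - 1) := by
          rw [← pow_succ']; congr 1; omega
        rw [h6]
        calc Nat.card L * (Nat.card (centralizerIn S S) * p ^ (i - 1))
            ≤ (Nat.card ((L.subgroupOf A).map h.D) * p) * (Nat.card (centralizerIn S S) * p ^ (i - 1)) :=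
              Nat.mul_le_mul_right _ h5
          _ = _ := by ring

theorem structure_of_essential (hF : F.IsSaturated p) (hS : IsPGroup p S) (hna : ¬ IsMulCommutative ↥S)
    (hA : A ≤ S ∧ IsMulCommutative ↥A ∧ (A.subgroupOf S).index = p)
    (huniq : ∀ B : Subgroup Ω, B ≤ S → IsMulCommutative ↥B → (B.subgroupOf S).index = p → B = A)
    (hP : F.IsEssential p P) (hPA : P ≠ A) :
    ((Subgroup.upperCentralSeries ↥S 2).map S.subtype) ≤ A ∧
      Nat.card ↥((S ⊓ Subgroup.centralizer (S : Set Ω)) ⊓ ((commutator ↥S).map S.subtype)) = p ∧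
      (((S ⊓ Subgroup.centralizer (S : Set Ω)) ⊔ ((commutator ↥S).map S.subtype)).subgroupOf A).index = p ∧
      (((S ⊓ Subgroup.centralizer (S : Set Ω))).subgroupOf ((Subgroup.upperCentralSeries ↥S 2).map S.subtype)).index = p ∧
      ∀ m : ℕ, ((S ⊓ Subgroup.centralizer (S : Set Ω)).subgroupOf S).index = p ^ m → 3 ≤ m →
        ¬ Subgroup.lowerCentralSeries S (m - 2) ≤ (S ⊓ Subgroup.centralizer (S : Set Ω)) := by
  obtain ⟨hAS, hAc, hAi⟩ := hA
  have hcomm : ∀ a ∈ A, ∀ b ∈ A, a * b = b * a := fun a ha b hb =>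
    congrArg Subtype.val (hAc.is_comm.comm (⟨a, ha⟩ : A) ⟨b, hb⟩)
  have hnab : ¬ ∀ u ∈ S, ∀ v ∈ S, u * v = v * u := fun h1 =>
    hna ⟨⟨fun u v => Subtype.ext (h1 u u.2 v v.2)⟩⟩
  have hPS := hP.1.1
  have hcen := hP.1.2 P (isConj_refl F hPS)
  have hPA' : ¬ P ≤ A := by
    intro h1
    apply hPA
    apply le_antisymm h1
    intro a ha
    apply hcen
    refine mem_centralizerIn.2 ⟨hAS ha, mem_centralizer_iff'.2 fun v hv => ?_⟩
    rw [hcomm a ha v (h1 hv)]; group
  obtain ⟨x, hxP, hxA⟩ := Set.not_subset.1 hPA'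
  have h : AI S A x p := ⟨hS, hAS, hcomm, hAi, hPS hxP, hxA, hnab⟩
  obtain ⟨hZ2, hE, -⟩ := main hF h hP hxP huniq
  have hZe : S ⊓ Subgroup.centralizer (S : Set Ω) = centralizerIn S S := rfl
  rw [hZe, h.commutator_eq]
  have hfA : Finite A := finite_of_le h.le
  have hfZ : Finite (centralizerIn S S) := finite_of_le (centralizerIn_le S S)
  have hfC : Finite h.C := finite_of_le (h.C_le.trans h.le)
  have hppos := hp.out.pos
  refine ⟨hZ2, ?_, ?_, ?_, ?_⟩
  · rw [inf_comm]; exact hE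
  · -- `|A : Z C| = p`
    have hsup' : centralizerIn S S ⊔ h.C ≤ A := sup_le h.Z_le h.C_le
    have hnorm : (centralizerIn S S).subgroupOf A ≤ Subgroup.normalizer ((h.C.subgroupOf A : Subgroup A) : Set A) := by
      intro z _
      refine FusionGrp.mem_normalizer_of_conj_mem fun c hc => ?_
      have h1 : z * c * z⁻¹ = c := Subtype.ext (by
        show (z : Ω) * c * (z : Ω)⁻¹ = c
        rw [h.comm z z.2 c c.2]; group)
      rw [h1]; exact hc
    have h1 := SubgroupTools.card_sup_mul_card_inf hnorm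
    rw [← Subgroup.subgroupOf_sup h.C_le h.Z_le, Nat.card_congr (Subgroup.subgroupOfEquivOfLe (sup_le h.C_le h.Z_le)).toEquiv,
      Nat.card_congr (Subgroup.subgroupOfEquivOfLe h.C_le).toEquiv, Nat.card_congr (Subgroup.subgroupOfEquivOfLe h.Z_le).toEquiv] at h1
    have h1' : Nat.card (h.C.subgroupOf A ⊓ (centralizerIn S S).subgroupOf A : Subgroup A) = p := by
      have h4 : h.C.subgroupOf A ⊓ (centralizerIn S S).subgroupOf A = (h.C ⊓ centralizerIn S S).subgroupOf A := by
        ext a; rfl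
      rw [h4, Nat.card_congr (Subgroup.subgroupOfEquivOfLe (inf_le_left.trans h.C_le)).toEquiv]
      exact hE
    rw [h1'] at h1
    have hsup : centralizerIn S S ⊔ h.C ≤ A := sup_le h.Z_le h.C_le
    have h2 := ((centralizerIn S S ⊔ h.C).subgroupOf A).index_mul_card
    rw [Nat.card_congr (Subgroup.subgroupOfEquivOfLe hsup).toEquiv, sup_comm] at h2
    have h3 := h.card_C
    have hpos : 0 < Nat.card (h.C ⊔ centralizerIn S S : Subgroup Ω) := by
      have : Finite (h.C ⊔ centralizerIn S S : Subgroup Ω) := finite_of_le ((sup_comm _ _).le.trans (hsup.trans h.le))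
      exact Nat.card_pos
    rw [sup_comm (centralizerIn S S)]
    apply Nat.eq_of_mul_eq_mul_right hpos
    rw [h2, ← h3, ← h1, mul_comm]
  · -- `|Z₂ : Z| = p`
    have hZle : centralizerIn S S ≤ (Subgroup.upperCentralSeries ↥S 2).map S.subtype := by
      intro z hz
      rw [mem_Z2_iff]
      refine ⟨centralizerIn_le S S hz, fun s hs => ?_⟩
      rw [← (mem_Z_iff.1 hz).2 s hs]
      have : s * z * z⁻¹ * s⁻¹ = 1 := by group
      rw [this]; exact Subgroup.one_mem _
    have h1 := SubgroupTools.card_map_mul_card_inf_ker h.D (((Subgroup.upperCentralSeries ↥S 2).map S.subtype).subgroupOf A)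
    rw [Nat.card_congr (Subgroup.subgroupOfEquivOfLe hZ2).toEquiv] at h1
    have h3 : ((Subgroup.upperCentralSeries ↥S 2).map S.subtype).subgroupOf A ⊓ h.D.ker = (centralizerIn S S).subgroupOf A := by
      rw [h.ker]
      exact inf_eq_right.2 (Subgroup.comap_mono hZle)
    rw [h3, Nat.card_congr (Subgroup.subgroupOfEquivOfLe h.Z_le).toEquiv] at h1
    have h4 : ((((Subgroup.upperCentralSeries ↥S 2).map S.subtype).subgroupOf A).map h.D).map A.subtype =
        h.C ⊓ centralizerIn S S := by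
      ext c
      constructor
      · rintro ⟨_, ⟨b, hb, rfl⟩, rfl⟩
        have hb' := mem_Z2_iff.1 (Subgroup.mem_subgroupOf.1 hb)
        exact ⟨h.mem_C.2 ⟨b, b.2, rfl⟩, hb'.2 x h.mem⟩
      · rintro ⟨hc, hcZ⟩
        obtain ⟨a, ha, rfl⟩ := h.mem_C.1 hc
        exact ⟨h.D ⟨a, ha⟩, ⟨⟨a, ha⟩, Subgroup.mem_subgroupOf.2 (mem_Z2_of h ha hcZ), rfl⟩, rfl⟩
    have h5 : Nat.card ((((Subgroup.upperCentralSeries ↥S 2).map S.subtype).subgroupOf A).map h.D) = p := by
      refine Eq.trans ?_ hE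
      rw [← h4]
      exact Nat.card_congr (Subgroup.equivMapOfInjective _ _ A.subtype_injective).toEquiv
    rw [h5] at h1
    have h6 := ((centralizerIn S S).subgroupOf ((Subgroup.upperCentralSeries ↥S 2).map S.subtype)).index_mul_card
    rw [Nat.card_congr (Subgroup.subgroupOfEquivOfLe hZle).toEquiv, ← h1] at h6
    exact Nat.eq_of_mul_eq_mul_right Nat.card_pos h6
  · intro m hm hm3 hcon
    obtain ⟨L, hLA, hLC, hLl, hLc, -⟩ := lcs_card h hE (m - 2)
    have h1 := ((centralizerIn S S).subgroupOf S).index_mul_card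
    have h2 : ((centralizerIn S S).subgroupOf S).index = p ^ m := hm
    rw [h2, Nat.card_congr (Subgroup.subgroupOfEquivOfLe (centralizerIn_le S S)).toEquiv, h.card] at h1
    have h3 : L ≤ h.C ⊓ centralizerIn S S := le_inf (hLC (by omega)) (hLl.trans hcon)
    have h4 : Nat.card L ≤ p := by
      rw [← hE]
      have : Finite (h.C ⊓ centralizerIn S S : Subgroup Ω) := finite_of_le (inf_le_right.trans (centralizerIn_le S S))
      exact Subgroup.card_le_of_le h3
    have h5 : Nat.card A ≤ p * (Nat.card (centralizerIn S S) * p ^ (m - 2 - 1)) := hLc.trans (Nat.mul_le_mul_right _ h4)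
    have hZpos : 0 < Nat.card (centralizerIn S S) := Nat.card_pos
    have h6 : p ^ m * Nat.card (centralizerIn S S) ≤ p ^ (m - 1) * Nat.card (centralizerIn S S) := by
      rw [h1]
      refine (Nat.mul_le_mul_left _ h5).trans ?_
      have h7 : p ^ (m - 1) = p * (p * p ^ (m - 2 - 1)) := by
        rw [← pow_succ', ← pow_succ']; congr 1; omega
      rw [h7]
      exact le_of_eq (by ring)
    have h7 := Nat.le_of_mul_le_mul_right h6 hZpos
    have h8 : p ^ (m - 1) < p ^ m := Nat.pow_lt_pow_right hp.out.one_lt (by omega)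
    omega

end Cfsg.Agent.Lib.FusionAbelIndex
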