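import Cfsg.Agent.Lib.QdLocal

/-!
Local-to-global control of strong fusion through centric well-placed subgroups. (helper51)
-/

set_option autoImplicit false

namespace Cfsg.Agent.Lib.FusionCentric

open Cfsg.Agent.Lib.CFSylow Cfsg.Agent.Lib.CFFusion Cfsg.Agent.Lib.CFControl
  Cfsg.Agent.Lib.CFLocal Cfsg.Agent.Lib.CFCore Cfsg.Agent.Lib.CFSection Cfsg.Agent.Lib.CFMin
  Cfsg.Agent.Lib.CFMain Cfsg.Agent.Lib.CFRed Cfsg.Agent.Lib.CFStmt Cfsg.Agent.Lib.ClosedCF
  Cfsg.Agent.Lib.ClosedPS Cfsg.Agent.Lib.ClosedWF Cfsg.Agent.Lib.QdCtrl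

universe u

variable {G : Type u} [Group G] {p : ℕ} [Fact p.Prime] [Finite G]

/-- Local to global control of strong fusion, only centric well-placed subgroups being needed. -/
theorem sf_of_wellPlaced_centric {W : Subgroup G → Subgroup G} (hW : Cfsg.IsConjugacyFunctor p W)
    {S : Subgroup G} (hS : SylIn p S ⊤)
    (hloc : ∀ B : Subgroup G, B ≤ S → B ≠ ⊥ → S ⊓ cz B ≤ B → Cfsg.IsWellPlaced p W S B → ∀ i,
      SF (W (S ⊓ nz (Cfsg.functorTower W S B i))) (nz (Cfsg.functorTower W S B i))
        (S ⊓ nz (Cfsg.functorTower W S B i))) : SF (W S) ⊤ S := by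
  have hSp := hS.isPGroup
  rw [sf_iff_reach]
  have hΦ := isFus_reach {⊤ ⊓ nz (W S)} S
  have := hΦ.induction hS ⊥ bot_le
    (fun B => Cfsg.IsWellPlaced p W S B) (fun B hB _ => exists_wellPlaced hW hS hB)
    (fun B hB => ⟨hB.1, wellPlaced_sylIn hSp hB 0⟩) ?_
  · intro B hB g _ hg; exact this B hB g hg
  · intro B hBS hB _ IH g hg
    by_cases hne : B = ⊥
    · subst hne
      refine .one bot_le ?_
      rw [mem_centralizer]
      intro a ha
      rw [Subgroup.mem_bot] at ha
      subst ha; simp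
    · by_cases hcen : S ⊓ cz B ≤ B
      · obtain ⟨n, hn, c, hc, rfl⟩ := tower_step hW hSp hB (hloc B hBS hne hcen hB) hg
        refine .step (.one hBS hc) rfl ⟨Subgroup.mem_top _, hn⟩ ?_
        rw [mem_normalizer.1 hg]; exact hBS
      · -- `R = B C_S(B)` is larger
        have hSyl : SylIn p (S ⊓ nz B) (nz B) := wellPlaced_sylIn hSp hB 0
        have hczn : nz B ≤ nz (cz B) := by
          intro x hx
          rw [mem_normalizer] at hx ⊢
          rw [cj_centralizer, hx]
        have hT : SylIn p ((S ⊓ nz B) ⊓ cz B) (cz B) :=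
          hSyl.inf_normal (centralizer_le_normalizer B) hczn
        have hTe : (S ⊓ nz B) ⊓ cz B = S ⊓ cz B := by
          apply le_antisymm
          · exact inf_le_inf_right _ inf_le_left
          · exact le_inf (le_inf inf_le_left (inf_le_right.trans (centralizer_le_normalizer B))) inf_le_right
        rw [hTe] at hT
        obtain ⟨c, hc, m, hm, rfl⟩ := frattini (p := p) hT (centralizer_le_normalizer B) hczn hg
        obtain ⟨R, hR⟩ : ∃ R, R = B ⊔ (S ⊓ cz B) := ⟨_, rfl⟩
        have hRS : R ≤ S := hR ▸ sup_le hBS inf_le_left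
        have hBR : B ≤ R := hR ▸ le_sup_left
        have hcard : Nat.card B < Nat.card R := by
          apply card_lt_of_lt
          refine lt_of_le_of_ne hBR ?_
          intro h
          have h3 : S ⊓ cz B ≤ R := hR ▸ le_sup_right
          rw [← h] at h3
          exact hcen h3
        have hmR : cj m R = R := by
          rw [hR, cj_sup, mem_normalizer.1 hm.1, mem_normalizer.1 hm.2]
        have h1 : Reach {⊤ ⊓ nz (W S)} S R m := IH R hRS hcard m (hmR.le.trans hRS)
        have h2 : Reach {⊤ ⊓ nz (W S)} S B m := hΦ.mono hBR h1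
        have h3 : cj m B = B := mem_normalizer.1 hm.1
        have h4 : Reach {⊤ ⊓ nz (W S)} S (cj m B) c := by
          rw [h3]; exact .one hBS hc
        exact hΦ.mul h2 h4

theorem functor_center_le {R : Subgroup G} (hR : IsPGroup p R) :
    R ⊓ cz R ≤ Cfsg.centerThompsonAOf R := by
  rw [ZJThm.centerThompsonAOf_eq]
  intro x hx
  show x ∈ (sInf (ThompsonJ.maxIn (fun A => IsMulCommutative A) R) : Subgroup G)
  rw [Subgroup.mem_sInf]
  intro A hA
  exact ThompsonJ.mem_of_centralizes_ab hA hx.1 (Subgroup.centralizer_le hA.1 hx.2)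

/-- `S3071`. -/
theorem sl2_free (hp : p ≠ 2) {S : Subgroup G} (hS : SylIn p S ⊤)
    (hfree : ∀ P : Subgroup G, S ⊓ cz S ≤ P → P ≤ S →
      ¬ Cfsg.Involves (Matrix.SpecialLinearGroup (Fin 2) (ZMod p)) ↥(nz P)) :
    SF (Cfsg.centerThompsonAOf S) ⊤ S := by
  have hWc : Cfsg.IsCharPFunctor.{u} p Wab := isChar_Wab
  have hW := isConjugacyFunctor_induced (X := G) hWc
  rw [← induced_Wab]
  apply sf_of_wellPlaced_centric hW hS
  intro B hBS hB hcen hBw i
  set T := Cfsg.functorTower (Cfsg.inducedFunctor (G := G) Wab) S B i with hT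
  have hTw := wellPlaced_tower hW hS.isPGroup hBw i
  have hTS : T ≤ S := hTw.1
  have hZB : S ⊓ cz S ≤ B := (inf_le_inf_left _ (Subgroup.centralizer_le hBS)).trans hcen
  have hZT : S ⊓ cz S ≤ T := by
    rw [hT]
    cases i with
    | zero => rw [functorTower_zero]; exact hZB
    | succ j =>
      rw [functorTower_succ, induced_Wab]
      refine le_trans ?_ (functor_center_le (hS.isPGroup.to_le inf_le_left))
      have hU := (wellPlaced_tower hW hS.isPGroup hBw j).1
      refine le_inf (le_inf inf_le_left ?_) ?_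
      · refine (inf_le_right.trans ?_).trans (centralizer_le_normalizer _)
        exact Subgroup.centralizer_le hU
      · exact inf_le_right.trans (Subgroup.centralizer_le inf_le_left)
  have h1 := hfree T hZT hTS
  have h2 : ¬ Cfsg.Involves ↥(Cfsg.qd p) ↥(nz T) := fun h => h1 (involves_trans QdLocal.qd_involves_sl2 h)
  have h3 := ctrl_of_qd_free (Or.inl rfl : ClosedZJ.IsZJ p Wab) hp h2
  have hSyl : SylIn p (S ⊓ nz T) (nz T) := wellPlaced_sylIn hS.isPGroup hTw 0
  exact sf_subgroup hWc h3 hSyl (ClosedIn.self _ _)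

end Cfsg.Agent.Lib.FusionCentric
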