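import Cfsg.Agent.Lib.FusionSat

/-! Maps of a saturated system agreeing on a centric subgroup differ by conjugation by an element of its centre. -/

set_option autoImplicit false
open Cfsg Cfsg.FusionSystem Cfsg.Agent.Lib.FusionBasic Cfsg.Agent.Lib.FusionSat

namespace Cfsg.Agent.Lib.FusionCentric

variable {Ω : Type*} [Group Ω] {S : Subgroup Ω} {F : FusionSystem S} {P Q R : Subgroup Ω} {f g : Ω → Ω} {p : ℕ}

/-- Powers of an automorphism that moves elements by a subgroup it fixes pointwise. -/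
theorem pow_of_fix {P : Subgroup Ω} (α : MulAut P) (x : P) (h : α (α x * x⁻¹) = α x * x⁻¹) (n : ℕ) :
    (α ^ n) x = (α x * x⁻¹) ^ n * x := by
  induction n with
  | zero => simp
  | succ n ih =>
    rw [pow_succ', MulAut.mul_apply, ih, map_mul, map_pow, h, pow_succ]
    simp [mul_assoc]

/-- A map of the system on `P` which is the identity on a centric subgroup `Q` normal in `P` is conjugation by an element of
`Z(Q)`. -/
theorem inner_of_trivial [Finite S] [Fact p.Prime] (hS : IsPGroup p S) (hF : F.IsSaturated p) (hQP : Q ≤ P)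
    (hn : ∀ g ∈ P, g ∈ Subgroup.normalizer (Q : Set Ω)) (hQ : F.IsCentric Q) (hf : FMap F P f) (h1 : ∀ x ∈ Q, f x = x) :
    ∃ z ∈ Q, z ∈ Subgroup.centralizer (Q : Set Ω) ∧ ∀ y ∈ P, f y = z * y * z⁻¹ := by
  have hPS := hf.le
  -- `f` moves elements of `P` by elements of `Z(Q)`
  have hmove : ∀ y ∈ P, f y * y⁻¹ ∈ Q ∧ f y * y⁻¹ ∈ Subgroup.centralizer (Q : Set Ω) := by
    intro y hy
    have hc : f y * y⁻¹ ∈ Subgroup.centralizer (Q : Set Ω) := by
      rw [mem_centralizer_iff']
      intro x hx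
      have hx' : y⁻¹ * x * y ∈ Q := by
        have := (Subgroup.mem_normalizer_iff.mp (hn y⁻¹ (P.inv_mem hy)) x).mp hx
        simpa using this
      have h2 := hf.map_conj hy (hQP hx')
      have h3 : y * (y⁻¹ * x * y) * y⁻¹ = x := by group
      rw [h3, h1 x hx, h1 _ hx'] at h2
      calc f y * y⁻¹ * x * (f y * y⁻¹)⁻¹ = f y * (y⁻¹ * x * y) * (f y)⁻¹ := by group
        _ = x := h2.symm
    refine ⟨hQ.2 Q (isConj_refl F hQ.1) ⟨S.mul_mem (hf.map_mem hy) (S.inv_mem (hPS hy)), hc⟩, hc⟩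
  have hfP : ∀ y ∈ P, f y ∈ P := by
    intro y hy
    have : f y = (f y * y⁻¹) * y := by group
    rw [this]
    exact P.mul_mem (hQP (hmove y hy).1) hy
  have hiso : FIso F P P f := hf.fiso_of_card hPS hfP le_rfl
  -- a fully normalized conjugate
  obtain ⟨P', r, hP', hr, -, -⟩ := exists_fullyNormalized_map hS hF hPS
  have hfa := fullyAutomized_of_fullyNormalized hS hF hP'
  set α : MulAut P := hiso.equiv with hα
  have hαc : ∀ x : P, ((α x : P) : Ω) = f x := fun x => rfl
  have hαp : ∃ k : ℕ, α ^ p ^ k = 1 := by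
    have hQp : IsPGroup p Q := isPGroup_of_le hS hQ.1
    have hfinQ := finite_of_le hQ.1
    obtain ⟨k, hk⟩ := IsPGroup.iff_card.mp hQp
    refine ⟨k, ?_⟩
    apply MulEquiv.ext
    intro x
    have h2 : α (α x * x⁻¹) = α x * x⁻¹ := by
      apply Subtype.ext
      rw [hαc]
      exact h1 _ (hmove x x.2).1
    rw [pow_of_fix α x h2]
    have h3 : (α x * x⁻¹) ^ p ^ k = 1 := by
      apply Subtype.ext
      have h4 : (⟨f x * (x : Ω)⁻¹, (hmove x x.2).1⟩ : Q) ^ p ^ k = 1 := by
        rw [← hk]; exact pow_card_eq_one'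
      have h5 := congrArg Subtype.val h4
      exact h5
    rw [h3, one_mul]
    rfl
  obtain ⟨k, hk⟩ := hαp
  set κ : MulAut P' := hr.autEquiv α with hκ
  have hκA : κ ∈ F.autGroup P' := by
    rw [← hr.map_autGroup]
    exact ⟨α, hiso.equiv_mem_autGroup, rfl⟩
  have hK : IsPGroup p (Subgroup.zpowers κ) := by
    rw [IsPGroup.iff_orderOf]
    rintro ⟨x, hx⟩
    have h2 : x ^ p ^ k = 1 := by
      obtain ⟨n, rfl⟩ := hx
      show (κ ^ n) ^ p ^ k = 1
      rw [← zpow_natCast, ← zpow_mul, mul_comm, zpow_mul, zpow_natCast, hκ, ← map_pow, hk, map_one, one_zpow]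
    have h3 : (⟨x, hx⟩ : Subgroup.zpowers κ) ^ p ^ k = 1 := Subtype.ext h2
    obtain ⟨m, -, hm⟩ := (Nat.dvd_prime_pow Fact.out).mp (orderOf_dvd_of_pow_eq_one h3)
    exact ⟨m, hm⟩
  obtain ⟨χ, hχ, hχK⟩ := exists_conj_le_autInducedBy hfa (Subgroup.zpowers κ) (by
    rw [Subgroup.zpowers_le]; exact hκA) hK
  obtain ⟨t, htS, ht⟩ := mem_autInducedBy_iff.1 (hχK κ (Subgroup.mem_zpowers κ))
  -- `e = χ ∘ r : P → P'`
  obtain ⟨c, hc, hcχ⟩ := exists_fmap_of_aut hP'.1 hχ
  have he := hr.trans hc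
  have hkey : ∀ y ∈ P, c (r (f y)) = t * c (r y) * t⁻¹ := by
    intro y hy
    have h2 := ht ⟨c (r y), he.mem hy⟩
    have h3 : (χ⁻¹ : MulAut P') ⟨c (r y), he.mem hy⟩ = ⟨r y, hr.mem hy⟩ := by
      rw [MulAut.inv_apply, MulEquiv.symm_apply_eq]
      apply Subtype.ext
      exact hcχ ⟨r y, hr.mem hy⟩
    rw [MulAut.mul_apply, MulAut.mul_apply, h3] at h2
    have h4 : κ ⟨r y, hr.mem hy⟩ = ⟨r (f y), hr.mem (hfP y hy)⟩ := by
      apply Subtype.ext
      rw [hκ]
      have := hr.autEquiv_coe α ⟨y, hy⟩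
      exact this
    rw [h4] at h2
    rw [← h2]
    exact hcχ ⟨r (f y), hr.mem (hfP y hy)⟩
  -- the image of `Q`
  obtain ⟨Q', hQ'⟩ := (he.1.restrict hQP).exists_iso
  have hQ'c : F.IsCentric Q' := isCentric_of_isConj hQ hQ'.isConj
  have htQ' : t ∈ Q' := by
    apply hQ'c.2 Q' (isConj_refl F hQ'c.1)
    refine mem_centralizerIn.mpr ⟨htS, ?_⟩
    rw [mem_centralizer_iff']
    intro y hy
    obtain ⟨x, hx, rfl⟩ := (hQ'.2 y).1 hy
    have := hkey x (hQP hx)
    rw [h1 x hx] at this
    exact this.symm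
  obtain ⟨z, hz, hzt⟩ := (hQ'.2 t).1 htQ'
  have hfin : ∀ y ∈ P, f y = z * y * z⁻¹ := by
    intro y hy
    apply he.1.inj (hfP y hy) (P.mul_mem (P.mul_mem (hQP hz) hy) (P.inv_mem (hQP hz)))
    have h2 := he.1.map_conj (hQP hz) hy
    have h3 := hkey y hy
    have h4 : c (r z) = t := hzt
    show c (r (f y)) = c (r (z * y * z⁻¹))
    rw [h2, h4]
    exact h3
  refine ⟨z, hz, ?_, hfin⟩
  rw [mem_centralizer_iff']
  intro x hx
  rw [← hfin x (hQP hx), h1 x hx]

/-- Two maps of the system on `P` which agree on a centric subgroup `Q` differ by conjugation by an element of `Z(Q)`. -/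
theorem eq_conj_of_agree [Finite S] [Fact p.Prime] (hS : IsPGroup p S) (hF : F.IsSaturated p) (hQP : Q ≤ P)
    (hQ : F.IsCentric Q) (hf : FMap F P f) (hg : FMap F P g) (h1 : ∀ x ∈ Q, f x = g x) :
    ∃ z ∈ Q, z ∈ Subgroup.centralizer (Q : Set Ω) ∧ ∀ y ∈ P, g y = f (z * y * z⁻¹) := by
  obtain ⟨n, hn⟩ : ∃ n, n = Nat.card P - Nat.card Q := ⟨_, rfl⟩
  induction n using Nat.strong_induction_on generalizing Q f with
  | _ n ih =>
    have hPS := hf.le
    have hfinP := finite_of_le (S := S) hPS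
    by_cases hQeq : Q = P
    · subst hQeq
      exact ⟨1, Q.one_mem, Subgroup.one_mem _, fun y hy => by simpa using (h1 y hy).symm⟩
    · have hlt : Q < P := lt_of_le_of_ne hQP hQeq
      have hN := lt_normalizerIn hS hPS hlt
      set N := normalizerIn P Q with hNdef
      have hNP : N ≤ P := inf_le_left
      -- on `N`: compare `f` and `g`
      obtain ⟨N', hN'⟩ := (hf.restrict hNP).exists_iso
      obtain ⟨fi, hfi, hfi1, hfi2⟩ := hN'.symm
      have hcomp : FMap F N' (fun y => g (fi y)) := hfi.1.comp hg (fun x hx => hNP (hfi.mem hx))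
      obtain ⟨Q', hQ'⟩ := (hf.restrict hQP).exists_iso
      have hQ'c := isCentric_of_isConj hQ hQ'.isConj
      have hQ'N' : Q' ≤ N' := by
        intro y hy
        obtain ⟨x, hx, rfl⟩ := (hQ'.2 y).1 hy
        exact hN'.mem (hN.le hx)
      have hn' : ∀ y ∈ N', y ∈ Subgroup.normalizer (Q' : Set Ω) := by
        intro y hy
        obtain ⟨x, hx, rfl⟩ := (hN'.2 y).1 hy
        have hxn := Subgroup.mem_normalizer_iff.mp hx.2
        rw [Subgroup.mem_normalizer_iff]
        intro u
        constructor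
        · intro hu
          obtain ⟨v, hv, rfl⟩ := (hQ'.2 u).1 hu
          rw [← hf.map_conj hx.1 (hQP hv)]
          exact hQ'.mem ((hxn v).mp hv)
        · intro hu
          obtain ⟨v, hv, hvu⟩ := (hQ'.2 _).1 hu
          have h2 : u = f (x⁻¹ * v * x) := by
            have h3 : f (x⁻¹ * v * (x⁻¹)⁻¹) = f x⁻¹ * f v * (f x⁻¹)⁻¹ := hf.map_conj (P.inv_mem hx.1) (hQP hv)
            rw [inv_inv] at h3
            rw [h3, hf.map_inv hx.1, hvu]
            group
          rw [h2]
          apply hQ'.mem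
          apply (hxn _).mpr
          have : x * (x⁻¹ * v * x) * x⁻¹ = v := by group
          rw [this]
          exact hv
      obtain ⟨z', hz', hz'c, hz'2⟩ := inner_of_trivial hS hF hQ'N' hn' hQ'c hcomp (by
        intro y hy
        obtain ⟨x, hx, rfl⟩ := (hQ'.2 y).1 hy
        show g (fi (f x)) = f x
        rw [hfi1 x (hN.le hx)]
        exact (h1 x hx).symm)
      obtain ⟨z, hz, rfl⟩ := (hQ'.2 z').1 hz'
      have hzc : z ∈ Subgroup.centralizer (Q : Set Ω) := by
        rw [mem_centralizer_iff']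
        intro x hx
        apply hf.inj (P.mul_mem (P.mul_mem (hQP hz) (hQP hx)) (P.inv_mem (hQP hz))) (hQP hx)
        rw [hf.map_conj (hQP hz) (hQP hx)]
        exact mem_centralizer_iff'.mp hz'c _ (hQ'.mem hx)
      have hgN : ∀ y ∈ N, g y = f (z * y * z⁻¹) := by
        intro y hy
        have h2 := hz'2 (f y) (hN'.mem hy)
        rw [hfi1 y hy] at h2
        rw [h2, hf.map_conj (hQP hz) (hNP hy)]
      -- now `f' = f ∘ c_z` and `g` agree on `N`
      have hf' : FMap F P (fun y => f (z * y * z⁻¹)) :=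
        (fmap_conj F hPS (hPS (hQP hz))).comp hf (fun x hx => P.mul_mem (P.mul_mem (hQP hz) hx) (P.inv_mem (hQP hz)))
      have hNc : F.IsCentric N := isCentric_mono hQ hN.le (hNP.trans hPS)
      have hcard : Nat.card P - Nat.card N < n := by
        have hfinN : Finite N := finite_of_le (hNP.trans hPS)
        have h2 : Nat.card Q < Nat.card N := by
          have := Subgroup.card_le_of_le hN.le
          rcases this.lt_or_eq with h | h
          · exact h
          · exact absurd (Subgroup.eq_of_le_of_card_ge hN.le h.ge) hN.ne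
        have h3 : Nat.card N ≤ Nat.card P := Subgroup.card_le_of_le hNP
        omega
      obtain ⟨w, hw, hwc, hw2⟩ := ih _ hcard hNP hNc hf' (fun x hx => (hgN x hx).symm) rfl
      have hwQ : w ∈ Q := by
        apply hQ.2 Q (isConj_refl F hQ.1)
        refine mem_centralizerIn.mpr ⟨hPS (hNP hw), ?_⟩
        rw [mem_centralizer_iff']
        intro x hx
        exact mem_centralizer_iff'.mp hwc x (hN.le hx)
      refine ⟨z * w, Q.mul_mem hz hwQ, ?_, fun y hy => ?_⟩
      · apply Subgroup.mul_mem _ hzc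
        rw [mem_centralizer_iff']
        intro x hx
        exact mem_centralizer_iff'.mp hwc x (hN.le hx)
      · rw [hw2 y hy]
        show f (z * (w * y * w⁻¹) * z⁻¹) = _
        congr 1
        group

end Cfsg.Agent.Lib.FusionCentric
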