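import Cfsg.Agent.Lib.FusionES7
import Cfsg.Agent.Lib.FusionCharP

/-!
Extension of automorphisms centralizing `X` and `C_T(X)` (Thompson's `A × B` lemma).
-/

set_option autoImplicit false
set_option linter.unusedSectionVars false

open Cfsg Cfsg.FusionSystem Cfsg.Agent.Lib.FusionBasic Cfsg.Agent.Lib.FusionSat Cfsg.Agent.Lib.FusionNormal
  Cfsg.Agent.Lib.FusionInvar Cfsg.Agent.Lib.FusionTools Cfsg.Agent.Lib.FusionPP Cfsg.Agent.Lib.FusionStrong
  Cfsg.Agent.Lib.FusionSys Cfsg.Agent.Lib.FusionFrat Cfsg.Agent.Lib.FusionPrime Cfsg.Agent.Lib.FusionTC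
  Cfsg.Agent.Lib.FusionClosed Cfsg.Agent.Lib.FusionStab Cfsg.Agent.Lib.FusionZeta

namespace Cfsg.Agent.Lib.FusionEB

variable {Ω : Type*} [Group Ω] {S T : Subgroup Ω} {F : FusionSystem S} {E : FusionSystem T} {P Q R M X Y Z : Subgroup Ω}
  {a b f g : Ω → Ω} {p : ℕ}

theorem axb_step [Finite S] [Fact p.Prime] (hS : IsPGroup p S) (hF : F.IsSaturated p)
    (hT : F.StronglyClosed T) (hX : F.IsFullyCentralized X) (hXQ : X ≤ Q) (hCQ : centralizerIn T X ≤ Q) (haX : ∀ x ∈ X, a x = x)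
    (ha : PP F p Q a) (ha1 : ∀ x ∈ Q, x ∈ T → a x = x) :
    ∃ a₁, PP F p (Q ⊔ normalizerIn T Q) a₁ ∧ (∀ x ∈ Q, a₁ x = a x) ∧ ∀ x ∈ normalizerIn T Q, a₁ x = x := by
  have hQS := ha.le
  have hnT := normalizes_of_stronglyClosed hT
  obtain ⟨Q', ψ, hQ', hψ, hψN, hψm⟩ := exists_fullyNormalized_map hS hF hQS
  obtain ⟨φ, hφ, hφ1, hφ2⟩ := hψ.symm
  have hQ'S := hQ'.1
  have hQ'a := fullyAutomized_of_fullyNormalized hS hF hQ'
  have hQ'r := receptive_of_fullyNormalized hS hF hQ'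
  have hmemT : ∀ {x : Ω}, x ∈ normalizerIn S Q → (x ∈ T ↔ ψ x ∈ T) := fun hx => strong_mem_iff hT hψN hx
  have hQN : Q ≤ normalizerIn S Q := le_normalizerIn hQS
  obtain ⟨a', ha'e⟩ : ∃ a' : Ω → Ω, a' = fun y => ψ (a (φ y)) := ⟨_, rfl⟩
  have ha' : PP F p Q' a' := by rw [ha'e]; exact ha.transport hψ hφ hφ1 hφ2
  have ha'ψ : ∀ x ∈ Q, a' (ψ x) = ψ (a x) := fun x hx => by
    rw [ha'e]; show ψ (a (φ (ψ x))) = _; rw [hφ1 x hx]
  have ha'1 : ∀ y ∈ Q', y ∈ T → a' y = y := by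
    intro y hy hyT
    obtain ⟨x, hx, rfl⟩ := hψ.mem_iff.1 hy
    rw [ha'ψ x hx, ha1 x hx ((hmemT (hQN hx)).2 hyT)]
  -- the image of `X`
  obtain ⟨X', hX'⟩ := (hψ.1.restrict hXQ).exists_iso
  have hX'Q : X' ≤ Q' := fun y hy => by
    obtain ⟨x, hx, rfl⟩ := hX'.mem_iff.1 hy
    exact hψ.mem (hXQ hx)
  have ha'X : ∀ y ∈ X', a' y = y := fun y hy => by
    obtain ⟨x, hx, rfl⟩ := hX'.mem_iff.1 hy
    rw [ha'ψ x (hXQ hx), haX x hx]
  have hCX' : centralizerIn T X' ≤ Q' := by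
    have hXr := receptive_of_fullyCentralized hS hF hX
    obtain ⟨ξ, hξ, -, -⟩ := hX'.symm
    obtain ⟨g, hg, hg1, hg2⟩ := exists_extension_centralizer hXr hξ
    have hle : centralizerIn T X' ≤ X' ⊔ centralizerIn S X' :=
      le_trans (inf_le_inf_right _ hT.1) le_sup_right
    have hc1 : Nat.card (centralizerIn T X') ≤ Nat.card (centralizerIn T X) :=
      (hg.restrict hle).card_image_le (fun x hx => ⟨StronglyClosed.map_mem F hT hg (hle hx) hx.1,
        (hg2 x ⟨hT.1 hx.1, hx.2⟩).2⟩) ((centralizerIn_le T X).trans hT.1)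
    have hc2 : FIso F (centralizerIn T X) (centralizerIn T X') ψ :=
      (hψ.1.restrict hCQ).fiso_of_card ((centralizerIn_le T X').trans hT.1) (fun x hx =>
        ⟨StronglyClosed.map_mem F hT hψ.1 (hCQ hx) hx.1, hX'.map_centralizer hψ.1 hXQ (hCQ hx) hx.2⟩) hc1
    intro y hy
    obtain ⟨x, hx, rfl⟩ := hc2.mem_iff.1 hy
    exact hψ.mem (hCQ hx)
  let M₁ := normalizerIn T Q'
  let L := stabS S T Q'
  let M := M₁ ⊔ L
  have hM₁S : M₁ ≤ S := (normalizerIn_le T Q').trans hT.1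
  have hLS : L ≤ S := fun s hs => hs.1.1
  have hMS : M ≤ S := sup_le hM₁S hLS
  obtain ⟨b, hb, hb1, hb2⟩ := ha'.inv
  let α : MulAut Q' := ha'.1.equiv
  have hα : α ∈ F.autGroup Q' := ha'.aut_mem
  have hαf : ∀ x ∈ Q', autFun α x = a' x := fun x hx => by rw [autFun_of_mem _ hx]; rfl
  have hαinv : ∀ x ∈ Q', autFun α⁻¹ x = b x := fun x hx => by
    have h1 := autFun_inv_apply α (hb.mem hx)
    rwa [hαf _ (hb.mem hx), hb2 x hx] at h1
  have hCL : centralizerIn S Q' ≤ M := by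
    refine le_trans (fun s hs => ?_) le_sup_right
    have h1 := mem_centralizer_iff'.1 hs.2
    refine ⟨centralizerIn_le_normalizerIn S Q' hs, fun x hx _ => h1 x hx, fun x hx => ?_⟩
    rw [h1 x hx, inv_mul_cancel]
    exact T.one_mem
  have hact : M ≤ actSub ha'.1 M := by
    refine sup_le (fun t ht => ?_) (fun s hs => ?_)
    · have htS := hM₁S ht
      -- κ = α c_t α⁻¹ c_t⁻¹
      let γ : MulAut Q' := conjAut Q' t ht.2
      have hγ : γ ∈ F.autGroup Q' := conjAut_mem_autGroup hQ'S ht.2 htS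
      have hγf : ∀ x ∈ Q', autFun γ x = t * x * t⁻¹ := fun x hx => by rw [autFun_of_mem _ hx]; rfl
      have htn : ∀ x ∈ Q', t * x * t⁻¹ ∈ Q' := fun x hx => (Subgroup.mem_normalizer_iff.1 ht.2 x).1 hx
      have htn' : ∀ x ∈ Q', t⁻¹ * x * t ∈ Q' := fun x hx => by
        have := (Subgroup.mem_normalizer_iff.1 (Subgroup.inv_mem _ ht.2) x).1 hx
        rwa [inv_inv] at this
      have hκ : α * γ * α⁻¹ * γ⁻¹ ∈ stabT F T Q' := by
        have hmem := Subgroup.mul_mem _ (Subgroup.mul_mem _ (Subgroup.mul_mem _ hα hγ) (Subgroup.inv_mem _ hα))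
          (Subgroup.inv_mem _ hγ)
        -- γ⁻¹ x ∈ x T and γ x ∈ x T
        have hγi : ∀ x ∈ Q', autFun γ⁻¹ x = t⁻¹ * x * t := fun x hx => by
          have h1 := autFun_inv_apply γ (htn' x hx)
          rw [hγf _ (htn' x hx)] at h1
          have h2 : t * (t⁻¹ * x * t) * t⁻¹ = x := by group
          rwa [h2] at h1
        refine ⟨hmem, fun x hx hxT => ?_, fun x hx => ?_⟩
        · have h1 : t⁻¹ * x * t ∈ T := T.mul_mem (T.mul_mem (T.inv_mem ht.1) hxT) ht.1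
          rw [autFun_mul _ _ hx, autFun_mul _ _ (autFun_mem _ hx), autFun_mul _ _ (autFun_mem _ (autFun_mem _ hx)),
            hγi x hx, hαinv _ (htn' x hx)]
          have h2 : b (t⁻¹ * x * t) = t⁻¹ * x * t := by
            have := hb1 _ (htn' x hx)
            rwa [ha'1 _ (htn' x hx) h1] at this
          rw [h2, hγf _ (htn' x hx)]
          have h3 : t * (t⁻¹ * x * t) * t⁻¹ = x := by group
          rw [h3, hαf x hx, ha'1 x hx hxT]
        · -- modulo T
          have hmod : ∀ y ∈ Q', y⁻¹ * (t * y * t⁻¹) ∈ T := fun y hy => by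
            have h1 := (Subgroup.mem_normalizer_iff.1 (Subgroup.inv_mem _ (hnT (hQ'S hy))) t).1 ht.1
            rw [inv_inv] at h1
            have h2 : y⁻¹ * (t * y * t⁻¹) = (y⁻¹ * t * y) * t⁻¹ := by group
            rw [h2]
            exact T.mul_mem h1 (T.inv_mem ht.1)
          set y := autFun γ⁻¹ x with hy
          have hyQ : y ∈ Q' := autFun_mem _ hx
          have hxy : x = t * y * t⁻¹ := by rw [hy, hγi x hx]; group
          have h1 : y⁻¹ * x ∈ T := by rw [hxy]; exact hmod y hyQ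
          set z := autFun α⁻¹ y with hz
          have hzQ : z ∈ Q' := autFun_mem _ hyQ
          have hαz : autFun α z = y := by rw [hz]; exact autFun_apply_inv α hyQ
          have h2 : z⁻¹ * autFun γ z ∈ T := by rw [hγf z hzQ]; exact hmod z hzQ
          have hαmap := fmap_of_autGroup hQ'S hα
          have h3 := StronglyClosed.map_mem F hT hαmap (Subgroup.mul_mem _ (Subgroup.inv_mem _ hzQ) (autFun_mem γ hzQ)) h2
          rw [hαmap.map_mul (Subgroup.inv_mem _ hzQ) (autFun_mem γ hzQ), hαmap.map_inv hzQ, hαz] at h3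
          rw [autFun_mul _ _ hx, autFun_mul _ _ (autFun_mem _ hx), autFun_mul _ _ (autFun_mem _ (autFun_mem _ hx))]
          show x⁻¹ * autFun α (autFun γ z) ∈ T
          have h4 : x⁻¹ * autFun α (autFun γ z) = (y⁻¹ * x)⁻¹ * (y⁻¹ * autFun α (autFun γ z)) := by group
          rw [h4]
          exact T.mul_mem (T.inv_mem h1) h3
      obtain ⟨l, hl, hl1⟩ := exists_stabS hS hT hQ'a hκ
      refine mem_actSub.2 ⟨ht.2, l * t, M.mul_mem (Subgroup.mem_sup_right hl) (Subgroup.mem_sup_left ht), fun x hx => ?_⟩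
      have hxa := ha'.mem hx
      have h1 := hl1 (t * a' x * t⁻¹) (htn _ hxa)
      have h2 : l * t * a' x * (l * t)⁻¹ = l * (t * a' x * t⁻¹) * l⁻¹ := by group
      rw [h2, ← h1]
      have h3 : t * a' x * t⁻¹ = autFun γ (autFun α x) := by rw [hαf x hx, hγf _ hxa]
      have h4 : (α * γ * α⁻¹ * γ⁻¹) * (γ * α) = α * γ := by group
      rw [h3, ← autFun_mul _ _ hx, ← autFun_mul _ _ hx, h4, autFun_mul _ _ hx, hγf x hx, hαf _ (htn x hx)]
    · -- s ∈ L
      have hs1 := hs.1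
      let γ : MulAut Q' := conjAut Q' s hs1.2
      have hγf : ∀ x ∈ Q', autFun γ x = s * x * s⁻¹ := fun x hx => by rw [autFun_of_mem _ hx]; rfl
      have hγ : γ ∈ stabT F T Q' := ⟨conjAut_mem_autGroup hQ'S hs1.2 hs1.1, fun x hx hxT => by
        rw [hγf x hx]; exact hs.2.1 x hx hxT, fun x hx => by rw [hγf x hx]; exact hs.2.2 x hx⟩
      obtain ⟨l, hl, hl1⟩ := exists_stabS hS hT hQ'a (stabT_normal hT hQ'S α hα γ hγ)
      refine mem_actSub.2 ⟨hs1.2, l, Subgroup.mem_sup_right hl, fun x hx => ?_⟩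
      have hxa := ha'.mem hx
      rw [← hl1 _ hxa, ← hαf x hx, ← autFun_mul _ _ hx]
      have h4 : (α * γ * α⁻¹) * α = α * γ := by group
      rw [h4, autFun_mul _ _ hx, hγf x hx, hαf _ ((Subgroup.mem_normalizer_iff.1 hs1.2 x).1 hx)]
  obtain ⟨σ, hσ, hσ1, hσ2⟩ := ext_grp_pp hQ'r ha' hMS hCL hact
  -- σ is trivial on M₁
  have hQ'M : Q' ⊔ M ≤ S := hσ.le
  have hfixW : ∀ x ∈ (Q' ⊔ M) ⊓ T, σ x = x := by
    refine FusionCharP.axb_pp hS hσ inf_le_left (hX'Q.trans le_sup_left) (fun x hx => ⟨hσ.mem hx.1,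
      StronglyClosed.map_mem F hT hσ.map hx.1 hx.2⟩) (fun v hv => by rw [hσ1 v (hX'Q hv), ha'X v hv]) ?_ ?_
    · intro v hv
      have hvM : v ∈ Q' ⊔ M := Subgroup.mem_sup_left (hX'Q hv)
      have hf : Finite ((Q' ⊔ M) ⊓ T : Subgroup Ω) := finite_of_le (inf_le_left.trans hQ'M)
      refine Subgroup.mem_normalizer_fintype fun x hx => ⟨Subgroup.mul_mem _ (Subgroup.mul_mem _ hvM hx.1) (Subgroup.inv_mem _ hvM), ?_⟩
      exact (Subgroup.mem_normalizer_iff.1 (hnT (hQ'S (hX'Q hv))) x).1 hx.2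
    · intro x hx hcx
      have hxC : x ∈ centralizerIn T X' := ⟨hx.2, mem_centralizer_iff'.2 fun v hv => by
        have h1 := hcx v hv
        have h2 : v * x = x * v := by
          calc v * x = (v * x * v⁻¹) * v := by group
            _ = x * v := by rw [h1]
        rw [← h2, mul_inv_cancel_right]⟩
      have hxQ' := hCX' hxC
      rw [hσ1 x hxQ', ha'1 x hxQ' hx.2]
  have hσM₁ : ∀ t ∈ M₁, σ t = t := fun t ht => hfixW t ⟨Subgroup.mem_sup_right (Subgroup.mem_sup_left ht), ht.1⟩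
  -- transport back
  have hNle : normalizerIn T Q ≤ normalizerIn S Q := fun x hx => ⟨hT.1 hx.1, hx.2⟩
  have hψN' : ∀ x ∈ normalizerIn T Q, ψ x ∈ M₁ := map_normalizer_inf hT hψN hψm
  have hQ₁N : Q ⊔ normalizerIn T Q ≤ normalizerIn S Q := sup_le hQN hNle
  obtain ⟨R, hR⟩ := (hψN.restrict hQ₁N).exists_iso
  obtain ⟨χ, hχ, hχ1, hχ2⟩ := hR.symm
  have hRle : R ≤ Q' ⊔ M := by
    intro y hy
    obtain ⟨x, hx, rfl⟩ := hR.mem_iff.1 hy
    exact map_sup_mem hR.1 (fun x hx => Subgroup.mem_sup_left (hψ.mem hx))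
      (fun x hx => Subgroup.mem_sup_right (Subgroup.mem_sup_left (hψN' x hx))) x hx
  have hRσ : ∀ x ∈ Q ⊔ normalizerIn T Q, σ (ψ x) ∈ R := by
    have h1 : FMap F (Q ⊔ normalizerIn T Q) (fun x => σ (ψ x)) := hR.1.comp hσ.map (fun x hx => hRle (hR.mem hx))
    refine map_sup_mem h1 (fun x hx => ?_) (fun x hx => ?_)
    · show σ (ψ x) ∈ R
      rw [hσ1 _ (hψ.mem hx), ha'ψ x hx]
      exact hR.mem (Subgroup.mem_sup_left (ha.mem hx))
    · show σ (ψ x) ∈ R
      rw [hσM₁ _ (hψN' x hx)]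
      exact hR.mem (Subgroup.mem_sup_right hx)
  have hσR : PP F p R σ := hσ.restrict hRle (fun y hy => by
    obtain ⟨x, hx, rfl⟩ := hR.mem_iff.1 hy
    exact hRσ x hx)
  refine ⟨fun x => χ (σ (ψ x)), hσR.transport hχ hR hχ2 hχ1, fun x hx => ?_, fun x hx => ?_⟩
  · show χ (σ (ψ x)) = a x
    rw [hσ1 _ (hψ.mem hx), ha'ψ x hx, hχ1 _ (Subgroup.mem_sup_left (ha.mem hx))]
  · show χ (σ (ψ x)) = x
    rw [hσM₁ _ (hψN' x hx), hχ1 _ (Subgroup.mem_sup_right hx)]

/-- A `p'`-automorphism of `Q` centralizing `X ≤ Q` and `C_T(X) ≤ Q` extends to `QT` so as to be trivial on `T`. -/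
theorem axb_extend [Finite S] [Fact p.Prime] (hS : IsPGroup p S) (hF : F.IsSaturated p)
    (hT : F.StronglyClosed T) (hX : F.IsFullyCentralized X) (hXQ : X ≤ Q) (hCQ : centralizerIn T X ≤ Q) (haX : ∀ x ∈ X, a x = x)
    (haC : ∀ x ∈ centralizerIn T X, a x = x) (ha : PP F p Q a) :
    ∃ a₁, PP F p (Q ⊔ T) a₁ ∧ (∀ x ∈ Q, a₁ x = a x) ∧ ∀ x ∈ T, a₁ x = x := by
  have hnT := normalizes_of_stronglyClosed hT
  have ha1 : ∀ x ∈ Q, x ∈ T → a x = x := by
    have hQS := ha.le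
    have h1 : ∀ x ∈ Q ⊓ T, a x = x := by
      refine FusionCharP.axb_pp hS ha inf_le_left hXQ (fun x hx => ⟨ha.mem hx.1,
        StronglyClosed.map_mem F hT ha.map hx.1 hx.2⟩) haX ?_ ?_
      · intro v hv
        have hvQ : v ∈ Q := hXQ hv
        have hf : Finite (Q ⊓ T : Subgroup Ω) := finite_of_le (inf_le_left.trans hQS)
        refine Subgroup.mem_normalizer_fintype fun x hx => ⟨Q.mul_mem (Q.mul_mem hvQ hx.1) (Q.inv_mem hvQ), ?_⟩
        exact (Subgroup.mem_normalizer_iff.1 (hnT (hQS hvQ)) x).1 hx.2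
      · intro x hx hcx
        refine haC x ⟨hx.2, mem_centralizer_iff'.2 fun v hv => ?_⟩
        have h1 := hcx v hv
        have h2 : v * x = x * v := by
          calc v * x = (v * x * v⁻¹) * v := by group
            _ = x * v := by rw [h1]
        rw [← h2, mul_inv_cancel_right]
    exact fun x hx hxT => h1 x ⟨hx, hxT⟩
  have main : ∀ (n : ℕ) (Q : Subgroup Ω) (a : Ω → Ω), Nat.card S - Nat.card Q = n → X ≤ Q → centralizerIn T X ≤ Q →
      (∀ x ∈ X, a x = x) → PP F p Q a →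
      (∀ x ∈ Q, x ∈ T → a x = x) → ∃ a₁, PP F p (Q ⊔ T) a₁ ∧ (∀ x ∈ Q, a₁ x = a x) ∧ ∀ x ∈ T, a₁ x = x := by
    intro n
    induction n using Nat.strong_induction_on with
    | _ n ih =>
      intro Q a hn hXQ hCQ haX ha ha1
      by_cases hle : T ≤ Q
      · rw [sup_eq_left.2 hle]
        exact ⟨a, ha, fun _ _ => rfl, fun x hx => ha1 x (hle hx) hx⟩
      · obtain ⟨a₁, h1, h2, h3⟩ := axb_step hS hF hT hX hXQ hCQ haX ha ha1
        have hQS := ha.le
        have hlt : Q < Q ⊔ normalizerIn T Q := lt_sup_normalizerIn hS hQS hT.1 (fun r hr g hg =>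
          (Subgroup.mem_normalizer_iff.1 (hnT (hQS hr)) g).1 hg) hle
        have hQ₁S := h1.le
        have hc := card_lt_of_lt hlt hQ₁S
        have hc2 : Nat.card ↥(Q ⊔ normalizerIn T Q) ≤ Nat.card S :=
          Nat.card_le_card_of_injective _ (Subgroup.inclusion_injective hQ₁S)
        have hinf : ∀ x ∈ Q ⊔ normalizerIn T Q, x ∈ T → x ∈ normalizerIn T Q := by
          intro x hx hxT
          have hxc : x ∈ normalizerIn T Q ⊔ Q := by rwa [sup_comm]
          obtain ⟨y, hy, z, hz, rfl⟩ := (mem_sup_of_normalizes (Q := Q) (P := normalizerIn T Q)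
            (fun x hx => hx.2)).1 hxc
          have hzT : z ∈ T := by
            have := T.mul_mem (T.inv_mem hy.1) hxT
            rwa [inv_mul_cancel_left] at this
          exact Subgroup.mul_mem _ hy ⟨hzT, Subgroup.le_normalizer hz⟩
        obtain ⟨a₂, k1, k2, k3⟩ := ih _ (by omega) (Q ⊔ normalizerIn T Q) a₁ rfl (hXQ.trans le_sup_left)
          (hCQ.trans le_sup_left) (fun x hx => by rw [h2 x (hXQ hx), haX x hx]) h1 (fun x hx hxT => h3 x (hinf x hx hxT))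
        have hsup : Q ⊔ normalizerIn T Q ⊔ T = Q ⊔ T := by
          rw [sup_assoc, sup_eq_right.2 (normalizerIn_le T Q)]
        rw [hsup] at k1
        exact ⟨a₂, k1, fun x hx => by rw [k2 x (Subgroup.mem_sup_left hx), h2 x hx], k3⟩
  exact main _ Q a rfl hXQ hCQ haX ha ha1

end Cfsg.Agent.Lib.FusionEB
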