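import Cfsg.Agent.Lib.FusionEB1

/-!
Frattini factorization with respect to `ET` maps, and invariance of `ET` automorphisms.
-/

set_option autoImplicit false
set_option linter.unusedSectionVars false

open Cfsg Cfsg.FusionSystem Cfsg.Agent.Lib.FusionBasic Cfsg.Agent.Lib.FusionSat Cfsg.Agent.Lib.FusionNormal
  Cfsg.Agent.Lib.FusionInvar Cfsg.Agent.Lib.FusionTools Cfsg.Agent.Lib.FusionPP Cfsg.Agent.Lib.FusionStrong
  Cfsg.Agent.Lib.FusionSys Cfsg.Agent.Lib.FusionFrat Cfsg.Agent.Lib.FusionPrime Cfsg.Agent.Lib.FusionTC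
  Cfsg.Agent.Lib.FusionClosed Cfsg.Agent.Lib.FusionStab Cfsg.Agent.Lib.FusionZeta Cfsg.Agent.Lib.FusionES

namespace Cfsg.Agent.Lib.FusionEB

universe u

variable {Ω : Type u} [Group Ω] {S T V : Subgroup Ω} {F : FusionSystem S} {E : FusionSystem T}
  {P Q R U M M' X Y Z P₀ : Subgroup Ω} {a b e f g ψ φ χ θ θ' μ : Ω → Ω} {p : ℕ} {y y' t s s' : Ω}

/-- `f` is an `ET` map followed by a map of `F` defined on the join with `T` -/
def FR (F : FusionSystem S) (E : FusionSystem T) (p : ℕ) (P : Subgroup Ω) (f : Ω → Ω) : Prop :=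
  ∃ Q φ ψ, ET F E p P Q φ ∧ FMap F (Q ⊔ T) ψ ∧ ∀ x ∈ P, f x = ψ (φ x)

theorem FR.congr (h : FR F E p P f) (hfg : ∀ x ∈ P, f x = g x) : FR F E p P g := by
  obtain ⟨Q, φ, ψ, h1, h2, h3⟩ := h
  exact ⟨Q, φ, ψ, h1, h2, fun x hx => by rw [← hfg x hx, h3 x hx]⟩

theorem FR.restrict (h : FR F E p Q f) (hPQ : P ≤ Q) : FR F E p P f := by
  obtain ⟨R, φ, ψ, h1, h2, h3⟩ := h
  obtain ⟨R', hR'⟩ := h1.exists_restrict hPQ
  have hR'R : R' ≤ R := fun y hy => by
    obtain ⟨x, hx, rfl⟩ := hR'.iso.mem_iff.1 hy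
    exact h1.iso.mem (hPQ hx)
  exact ⟨R', φ, ψ, hR', h2.restrict (sup_le_sup_right hR'R T), fun x hx => h3 x (hPQ hx)⟩

theorem FR.of_ET (c : Cx F E p) (h : ET F E p P Q f) : FR F E p P f :=
  ⟨Q, f, fun x => x, h, fmap_id F (sup_le h.iso.le_right c.TS), fun _ _ => rfl⟩

theorem FR.of_map (hP : P ≤ S) (h : FMap F (P ⊔ T) f) : FR F E p P f :=
  ⟨P, fun x => x, f, ET.id hP, h, fun _ _ => rfl⟩

/-- the image of `R` under a map defined on `R` containing `T` contains `T` -/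
theorem map_T [Finite S] (hT : F.StronglyClosed T) (hψ : FMap F R ψ) (hTR : T ≤ R) : FIso F T T ψ := by
  have hTf : Finite T := finite_of_le hT.1
  exact (hψ.restrict hTR).fiso_of_card hT.1 (fun x hx => StronglyClosed.map_mem F hT hψ (hTR hx) hx) le_rfl

theorem FR.comp [Finite S] (c : Cx F E p) (h : FR F E p P f) (hPQ : ∀ x ∈ P, f x ∈ Q) (h' : FR F E p Q g) :
    FR F E p P (fun x => g (f x)) := by
  obtain ⟨Q₀, φ, ψ, h1, h2, h3⟩ := h
  obtain ⟨Q₁, φ₁, ψ₁, k1, k2, k3⟩ := h'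
  -- the image of `Q₀ ⊔ T` under `ψ`
  obtain ⟨W, hW⟩ := h2.exists_iso
  obtain ⟨ψ', hψ', e1, e2⟩ := hW.symm
  have hTT := map_T c.hT h2 le_sup_right
  have hTW : T ≤ W := fun t ht => by
    obtain ⟨x, hx, rfl⟩ := hTT.mem_iff.1 ht
    exact hW.mem (Subgroup.mem_sup_right hx)
  -- `Q' = f(P)`
  obtain ⟨Q', hQ'⟩ := (hW.1.restrict (le_sup_left : Q₀ ≤ Q₀ ⊔ T)).exists_iso
  have hQ'Q : Q' ≤ Q := fun y hy => by
    obtain ⟨x, hx, rfl⟩ := hQ'.mem_iff.1 hy
    obtain ⟨z, hz, rfl⟩ := h1.iso.mem_iff.1 hx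
    rw [← h3 z hz]; exact hPQ z hz
  obtain ⟨Q₁', hk⟩ := k1.exists_restrict hQ'Q
  have hQ₁'Q₁ : Q₁' ≤ Q₁ := fun y hy => by
    obtain ⟨x, hx, rfl⟩ := hk.iso.mem_iff.1 hy
    exact k1.iso.mem (hQ'Q hx)
  have hQ'W : Q' ≤ W := fun y hy => by
    obtain ⟨x, hx, rfl⟩ := hQ'.mem_iff.1 hy
    exact hW.mem (Subgroup.mem_sup_left hx)
  have hQ₁'W : Q₁' ≤ W := hk.le_of_le c hTW hQ'W
  have m1 : FIso F Q' Q₀ ψ' := by
    obtain ⟨χ, hχ, l1, l2⟩ := hQ'.symm
    refine hχ.congr fun y hy => ?_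
    have h4 := hχ.mem hy
    have h5 := e1 _ (Subgroup.mem_sup_left (S := Q₀) (T := T) h4)
    rw [l2 y hy] at h5
    exact h5.symm
  obtain ⟨Q₂, hQ₂⟩ := (hψ'.1.restrict hQ₁'W).exists_iso
  obtain ⟨f', hf', hf1⟩ := hk.move c hψ'.1 hTW hQ'W m1 hQ₂
  refine ⟨Q₂, fun x => f' (φ x), fun x => ψ₁ (ψ x), h1.comp hf', ?_, ?_⟩
  · have hQ₂W : Q₂ ⊔ T ≤ Q₀ ⊔ T := by
      refine sup_le (fun y hy => ?_) le_sup_right
      obtain ⟨x, hx, rfl⟩ := hQ₂.mem_iff.1 hy
      exact hψ'.mem (hQ₁'W hx)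
    refine (h2.restrict hQ₂W).comp k2 ?_
    refine map_sup_mem (h2.restrict hQ₂W) (fun x hx => ?_) (fun x hx => Subgroup.mem_sup_right (hTT.mem hx))
    obtain ⟨y, hy, rfl⟩ := hQ₂.mem_iff.1 hx
    rw [e2 y (hQ₁'W hy)]
    exact Subgroup.mem_sup_left (hQ₁'Q₁ hy)
  · intro x hx
    have hφx := h1.iso.mem hx
    have h4 : ψ (φ x) ∈ Q' := hQ'.mem hφx
    have h5 := hf1 _ h4
    rw [e1 _ (Subgroup.mem_sup_left hφx)] at h5
    show g (f x) = ψ₁ (ψ (f' (φ x)))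
    rw [h5, e2 _ (hQ₁'W (hk.iso.mem h4)), ← h3 x hx, k3 _ (hPQ x hx)]

theorem FR.inv [Finite S] (c : Cx F E p) (h : FR F E p P f) (hf : FIso F P Q f) (hg : ∀ x ∈ P, g (f x) = x) :
    FR F E p Q g := by
  obtain ⟨Q₀, φ, ψ, h1, h2, h3⟩ := h
  obtain ⟨W, hW⟩ := h2.exists_iso
  obtain ⟨ψ', hψ', e1, e2⟩ := hW.symm
  obtain ⟨φ', hφ', l1, l2⟩ := h1.exists_inv c
  have hPW : P ≤ Q₀ ⊔ T := hφ'.le_of_le c le_sup_right le_sup_left
  have m1 : FIso F Q₀ Q ψ := by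
    refine ((hW.1.restrict (le_sup_left : Q₀ ≤ Q₀ ⊔ T))).fiso_of_card hf.le_right (fun x hx => ?_) ?_
    · obtain ⟨z, hz, rfl⟩ := h1.iso.mem_iff.1 hx
      rw [← h3 z hz]; exact hf.mem hz
    · rw [← hf.card_eq, ← h1.iso.card_eq]
  obtain ⟨P', hP'⟩ := (hW.1.restrict hPW).exists_iso
  obtain ⟨f', hf', hf1⟩ := hφ'.move c hW.1 le_sup_right le_sup_left m1 hP'
  have hP'W : P' ⊔ T ≤ W := by
    refine sup_le (fun y hy => ?_) (fun t ht => ?_)
    · obtain ⟨x, hx, rfl⟩ := hP'.mem_iff.1 hy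
      exact hW.mem (hPW hx)
    · obtain ⟨x, hx, rfl⟩ := (map_T c.hT h2 le_sup_right).mem_iff.1 ht
      exact hW.mem (Subgroup.mem_sup_right hx)
  refine ⟨P', f', ψ', hf', hψ'.1.restrict hP'W, fun y hy => ?_⟩
  obtain ⟨x, hx, rfl⟩ := m1.mem_iff.1 hy
  rw [hf1 x hx, e1 _ (hPW (hφ'.iso.mem hx))]
  obtain ⟨z, hz, rfl⟩ := h1.iso.mem_iff.1 hx
  rw [← h3 z hz, hg z hz, l1 z hz]

/-- the automorphisms of `P` in `F` trivial modulo `T` and inducing a map of `E` on `P ⊓ T` -/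
def AA (c : Cx F E p) [Finite S] (P : Subgroup Ω) : Subgroup (MulAut P) where
  carrier := {κ | κ ∈ F.autGroup P ∧ (∀ x ∈ P, x⁻¹ * autFun κ x ∈ T) ∧ FMap E (P ⊓ T) (autFun κ)}
  one_mem' := ⟨Subgroup.one_mem _, fun x hx => by rw [autFun_one hx, inv_mul_cancel]; exact T.one_mem,
    (fmap_id E inf_le_right).congr fun x hx => (autFun_one hx.1).symm⟩
  mul_mem' := by
    rintro α β ⟨h1, h2, h3⟩ ⟨k1, k2, k3⟩
    refine ⟨Subgroup.mul_mem _ h1 k1, fun x hx => ?_, ?_⟩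
    · rw [autFun_mul _ _ hx]
      have e : x⁻¹ * autFun α (autFun β x) = (x⁻¹ * autFun β x) * ((autFun β x)⁻¹ * autFun α (autFun β x)) := by group
      rw [e]
      exact T.mul_mem (k2 x hx) (h2 _ (autFun_mem _ hx))
    · exact (k3.comp h3 (fun x hx => ⟨autFun_mem _ hx.1, k3.map_mem hx⟩)).congr fun x hx => (autFun_mul _ _ hx.1).symm
  inv_mem' := by
    rintro α ⟨h1, h2, h3⟩
    have hTf : Finite T := finite_of_le c.TS
    refine ⟨Subgroup.inv_mem _ h1, fun x hx => ?_, ?_⟩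
    · have h4 := h2 _ (autFun_mem α⁻¹ hx)
      rw [autFun_apply_inv α hx] at h4
      have e : x⁻¹ * autFun α⁻¹ x = ((autFun α⁻¹ x)⁻¹ * x)⁻¹ := by group
      rw [e]; exact T.inv_mem h4
    · have hi : FIso E (P ⊓ T) (P ⊓ T) (autFun α) :=
        h3.fiso_of_card inf_le_right (fun x hx => ⟨autFun_mem _ hx.1, h3.map_mem hx⟩) le_rfl
      obtain ⟨g, hg, e1, e2⟩ := hi.symm
      refine hg.1.congr fun x hx => ?_
      have h5 := autFun_inv_apply α (x := g x) (hg.mem hx).1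
      rw [e2 x hx] at h5
      exact h5.symm

theorem mem_AA {c : Cx F E p} [Finite S] {κ : MulAut P} : κ ∈ AA c P ↔
    κ ∈ F.autGroup P ∧ (∀ x ∈ P, x⁻¹ * autFun κ x ∈ T) ∧ FMap E (P ⊓ T) (autFun κ) := Iff.rfl

theorem AA_normal (c : Cx F E p) [Finite S] (hP : P ≤ S) : ∀ α ∈ F.autGroup P, ∀ κ ∈ AA c P, α * κ * α⁻¹ ∈ AA c P := by
  intro α hα κ hκ
  obtain ⟨h1, h2, h3⟩ := hκ
  have hαm := fmap_of_autGroup hP hα
  have hαi : FIso F P P (autFun α) := (fiso_autFun_iff hP).2 hα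
  have hTf : Finite T := finite_of_le c.TS
  refine ⟨Subgroup.mul_mem _ (Subgroup.mul_mem _ hα h1) (Subgroup.inv_mem _ hα), fun x hx => ?_, ?_⟩
  · set z := autFun α⁻¹ x with hz
    have hzP : z ∈ P := autFun_mem _ hx
    have hαz : autFun α z = x := by rw [hz]; exact autFun_apply_inv α hx
    have h4 := StronglyClosed.map_mem F c.hT hαm (Subgroup.mul_mem _ (Subgroup.inv_mem _ hzP) (autFun_mem κ hzP)) (h2 z hzP)
    rw [hαm.map_mul (Subgroup.inv_mem _ hzP) (autFun_mem κ hzP), hαm.map_inv hzP, hαz] at h4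
    rw [autFun_mul _ _ hx, autFun_mul _ _ (autFun_mem _ hx)]
    exact h4
  · have hi := fiso_inf c.hT hαi
    have hk : FIso E (P ⊓ T) (P ⊓ T) (autFun κ) :=
      h3.fiso_of_card inf_le_right (fun x hx => ⟨autFun_mem _ hx.1, h3.map_mem hx⟩) le_rfl
    have h5 := c.str.transport inf_le_right hi (g := autFun α⁻¹) (fun x hx => autFun_inv_apply α hx.1) hk
    refine h5.congr fun x hx => ?_
    rw [autFun_mul _ _ hx.1, autFun_mul _ _ (autFun_mem _ hx.1)]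

theorem FR_conj (c : Cx F E p) (hP : P ≤ S) (hs : s ∈ S) : FR F E p P (fun x => s * x * s⁻¹) :=
  FR.of_map hP (fmap_conj F (sup_le hP c.TS) hs)

/-- the automorphisms of `P` with a Frattini factorization -/
def FH (c : Cx F E p) [Finite S] (P : Subgroup Ω) (hP : P ≤ S) : Subgroup (MulAut P) where
  carrier := {κ | κ ∈ F.autGroup P ∧ FR F E p P (autFun κ)}
  one_mem' := ⟨Subgroup.one_mem _, (FR.of_ET c (ET.id hP)).congr fun x hx => (autFun_one hx).symm⟩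
  mul_mem' := by
    rintro α β ⟨h1, h2⟩ ⟨k1, k2⟩
    exact ⟨Subgroup.mul_mem _ h1 k1, (k2.comp c (fun x hx => autFun_mem _ hx) h2).congr fun x hx => (autFun_mul _ _ hx).symm⟩
  inv_mem' := by
    rintro α ⟨h1, h2⟩
    exact ⟨Subgroup.inv_mem _ h1, h2.inv c ((fiso_autFun_iff hP).2 h1) (fun x hx => autFun_inv_apply α hx)⟩

theorem AA_le_FH [Finite S] [Fact p.Prime] (c : Cx F E p) (hP : P ≤ S) (hTC : TC F T (P ⊓ T)) (hPa : F.IsFullyAutomized p P) :
    AA c P ≤ FH c P hP := by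
  refine normal_induction hPa (fun κ h => h.1) (AA_normal c hP) (fun κ h => ?_) (fun κ h h' => ?_)
  · obtain ⟨s, hs, h1⟩ := mem_autInducedBy_iff.1 h.2
    exact ⟨h.1.1, (FR_conj c hP hs).congr fun x hx => by rw [autFun_of_mem _ hx]; exact (h1 ⟨x, hx⟩).symm⟩
  · exact ⟨h.1, FR.of_ET c (ET.base (R := P) ⟨h', hTC, h.2.1, h.2.2⟩ le_rfl h'.iso)⟩

theorem not_cent_of_not_tc [Finite S] [Fact p.Prime] (hS : IsPGroup p S) (hF : F.IsSaturated p) (hT : F.StronglyClosed T)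
    (hPT : P ≤ T) (hn : ¬ TC F T P) (hφ : FIso F P Q φ) (hQ : F.IsFullyNormalized Q) : ¬ centralizerIn T Q ≤ Q := by
  intro hC
  have hQT : Q ≤ T := le_of_fiso hT hPT hφ
  apply hn
  have hQr := receptive_of_fullyNormalized hS hF hQ
  have h1 : TC F T Q := by
    refine ⟨hQT, fun R hR => ?_⟩
    obtain ⟨e, he⟩ := isConj_iff_fiso.1 hR
    obtain ⟨χ, hχ, l1, l2⟩ := he.symm
    obtain ⟨g, hg, hg1, hg2⟩ := exists_extension_centralizer hQr hχ
    intro y hy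
    have hyS : y ∈ centralizerIn S R := ⟨hT.1 hy.1, hy.2⟩
    have hy1 : y ∈ R ⊔ centralizerIn S R := Subgroup.mem_sup_right hyS
    have h2 : g y ∈ Q := hC ⟨StronglyClosed.map_mem F hT hg hy1 hy.1, (hg2 y hyS).2⟩
    obtain ⟨x, hx, h3⟩ := hχ.mem_iff.1 h2
    have h4 : g x = g y := by rw [hg1 x hx, h3]
    rw [← hg.inj (Subgroup.mem_sup_left hx) hy1 h4]
    exact hx
  exact h1.conj hT (isConj_symm hφ.isConj)

/-- an automorphism of `Q` extends to the join with the stabilizer of the chain `1 ≤ Q ⊓ T ≤ Q` -/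
theorem ext_stabS [Finite S] [Fact p.Prime] (hS : IsPGroup p S) (hF : F.IsSaturated p) (hT : F.StronglyClosed T)
    (hQ : F.IsFullyNormalized Q) (hf : FIso F Q Q f) :
    ∃ σ, FMap F (Q ⊔ stabS S T Q) σ ∧ ∀ x ∈ Q, σ x = f x := by
  have hQS := hQ.1
  have hQa := fullyAutomized_of_fullyNormalized hS hF hQ
  have hQr := receptive_of_fullyNormalized hS hF hQ
  let α : MulAut Q := hf.equiv
  have hα : α ∈ F.autGroup Q := hf.equiv_mem_autGroup
  have hαf : ∀ x ∈ Q, autFun α x = f x := fun x hx => by rw [autFun_of_mem _ hx]; rfl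
  obtain ⟨σ, h1, h2, -⟩ := ext_grp (M := stabS S T Q) hQr hf (fun s hs => hs.1.1) (fun s hs => by
    have h1 := mem_centralizer_iff'.1 hs.2
    refine ⟨centralizerIn_le_normalizerIn S Q hs, fun x hx _ => h1 x hx, fun x hx => ?_⟩
    rw [h1 x hx, inv_mul_cancel]
    exact T.one_mem) (fun s hs => by
    have hs1 := hs.1
    let γ : MulAut Q := conjAut Q s hs1.2
    have hγf : ∀ x ∈ Q, autFun γ x = s * x * s⁻¹ := fun x hx => by rw [autFun_of_mem _ hx]; rfl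
    have hγ : γ ∈ stabT F T Q := ⟨conjAut_mem_autGroup hQS hs1.2 hs1.1, fun x hx hxT => by
      rw [hγf x hx]; exact hs.2.1 x hx hxT, fun x hx => by rw [hγf x hx]; exact hs.2.2 x hx⟩
    obtain ⟨l, hl, hl1⟩ := exists_stabS hS hT hQa (stabT_normal hT hQS α hα γ hγ)
    refine mem_actSub.2 ⟨hs1.2, l, hl, fun x hx => ?_⟩
    have hxa := hf.mem hx
    rw [← hl1 _ hxa, ← hαf x hx, ← autFun_mul _ _ hx]
    have h4 : (α * γ * α⁻¹) * α = α * γ := by group
    rw [h4, autFun_mul _ _ hx, hγf x hx, hαf _ ((Subgroup.mem_normalizer_iff.1 hs1.2 x).1 hx)])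
  exact ⟨σ, h1, h2⟩

theorem lt_sup_stabS [Finite S] [Fact p.Prime] (hS : IsPGroup p S) (hT : F.StronglyClosed T) (hQS : Q ≤ S)
    (hn : ¬ centralizerIn T (Q ⊓ T) ≤ Q ⊓ T) : Q < Q ⊔ stabS S T Q := by
  have hnT := normalizes_of_stronglyClosed hT
  have hQf : Finite Q := finite_of_le hQS
  have hnor : ∀ r ∈ Q, ∀ g ∈ centralizerIn T (Q ⊓ T), r * g * r⁻¹ ∈ centralizerIn T (Q ⊓ T) := by
    intro r hr g hg
    refine ⟨(Subgroup.mem_normalizer_iff.1 (hnT (hQS hr)) g).1 hg.1, mem_centralizer_iff'.2 fun x hx => ?_⟩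
    have h1 : r⁻¹ * x * r ∈ Q ⊓ T := by
      refine ⟨Q.mul_mem (Q.mul_mem (Q.inv_mem hr) hx.1) hr, ?_⟩
      have := (Subgroup.mem_normalizer_iff.1 (Subgroup.inv_mem _ (hnT (hQS hr))) x).1 hx.2
      rwa [inv_inv] at this
    have h2 := mem_centralizer_iff'.1 hg.2 _ h1
    calc r * g * r⁻¹ * x * (r * g * r⁻¹)⁻¹ = r * (g * (r⁻¹ * x * r) * g⁻¹) * r⁻¹ := by group
      _ = x := by rw [h2]; group
  have h1 := lt_sup_normalizerIn hS hQS ((centralizerIn_le T (Q ⊓ T)).trans hT.1) hnor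
    (fun h => hn fun x hx => ⟨h hx, hx.1⟩)
  refine lt_of_lt_of_le h1 (sup_le_sup_left (fun t ht => ?_) Q)
  have ht1 := mem_centralizer_iff'.1 ht.1.2
  refine ⟨⟨hT.1 ht.1.1, ht.2⟩, fun x hx hxT => ht1 x ⟨hx, hxT⟩, fun x hx => ?_⟩
  have h2 := (Subgroup.mem_normalizer_iff.1 (Subgroup.inv_mem _ (hnT (hQS hx))) t).1 ht.1.1
  rw [inv_inv] at h2
  have e : x⁻¹ * (t * x * t⁻¹) = (x⁻¹ * t * x) * t⁻¹ := by group
  rw [e]
  exact T.mul_mem h2 (T.inv_mem ht.1.1)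

theorem all_FR [Finite S] [Fact p.Prime] (c : Cx F E p) : ∀ P f, FMap F P f → FR F E p P f := by
  have hS := c.hS
  have hF := c.hF
  have hT := c.hT
  have hTf : Finite T := finite_of_le c.TS
  have hnT := normalizes_of_stronglyClosed hT
  refine strong_induction hS hF (FR F E p) (fun P f g _ h h' => h'.congr h) (fun P Q f _ h h' => h'.restrict h)
    (fun P Q f g h1 _ h3 h4 => h3.comp c (fun x hx => h1.mem hx) h4) (fun P Q f g h1 _ h3 h4 => h4.inv c h1 h3) ?_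
  intro P f hP hf ih
  have hPS := hP.1
  have hPa := fullyAutomized_of_fullyNormalized hS hF hP
  have hPr := receptive_of_fullyNormalized hS hF hP
  have hcS : ∀ {A : Subgroup Ω}, A ≤ S → Finite A := fun h => finite_of_le h
  by_cases hTP : T ≤ P
  · exact FR.of_map hPS (by rw [sup_eq_left.2 hTP]; exact hf.1)
  have hltN : P < P ⊔ normalizerIn T P := lt_sup_normalizerIn hS hPS c.TS (fun r hr g hg =>
    (Subgroup.mem_normalizer_iff.1 (hnT (hPS hr)) g).1 hg) hTP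
  have hPN : P ≤ normalizerIn S P := le_normalizerIn hPS
  have hTN : normalizerIn T P ≤ normalizerIn S P := nT_le c.TS
  have hsupN : P ⊔ normalizerIn T P ≤ normalizerIn S P := sup_le hPN hTN
  have hNS : normalizerIn S P ≤ S := normalizerIn_le S P
  by_cases hTC : TC F T (P ⊓ T)
  · let N : Subgroup (MulAut P) := AA c P ⊔ Inn P
    have hInnA : Inn P ≤ F.autGroup P := by
      rw [inn_eq_autInducedBy]; exact autInducedBy_le_autGroup hPS hPS
    have hN : N ≤ F.autGroup P := sup_le (fun κ h => h.1) hInnA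
    have hNn : ∀ α ∈ F.autGroup P, ∀ n ∈ N, α * n * α⁻¹ ∈ N := by
      intro α hα
      have h1 : N ≤ N.comap (MulAut.conj α).toMonoidHom := by
        refine sup_le (fun κ hκ => ?_) (fun κ hκ => ?_)
        · exact Subgroup.mem_sup_left (AA_normal c hPS α hα κ hκ)
        · refine Subgroup.mem_sup_right ?_
          rw [inn_eq_autInducedBy, mem_autInducedBy_iff] at hκ
          obtain ⟨g, hg, h2⟩ := hκ
          show α * κ * α⁻¹ ∈ Inn P
          rw [inn_eq_autInducedBy, mem_autInducedBy_iff]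
          refine ⟨autFun α g, autFun_mem α hg, fun x => ?_⟩
          have hαm := fmap_of_autGroup hPS hα
          have hz : autFun α⁻¹ (x : Ω) ∈ P := autFun_mem _ x.2
          have h3 : ((( α * κ * α⁻¹ : MulAut P) x : P) : Ω) = autFun (α * κ * α⁻¹) x := by rw [autFun_of_mem _ x.2]
          have h4 : autFun κ (autFun α⁻¹ (x : Ω)) = g * autFun α⁻¹ (x : Ω) * g⁻¹ := by
            rw [autFun_of_mem _ hz]; exact h2 ⟨_, hz⟩
          rw [h3, autFun_mul _ _ x.2, autFun_mul _ _ (autFun_mem _ x.2), h4,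
            hαm.map_mul (Subgroup.mul_mem _ hg hz) (Subgroup.inv_mem _ hg), hαm.map_mul hg hz, hαm.map_inv hg,
            autFun_apply_inv α x.2]
      intro n hn
      exact h1 hn
    have hMN : autInducedBy (P ⊔ normalizerIn T P) P ≤ N := by
      intro κ hκ
      obtain ⟨g, hg, h1⟩ := mem_autInducedBy_iff.1 hκ
      have hg' : g ∈ normalizerIn T P ⊔ P := by rwa [sup_comm]
      obtain ⟨t, ht, z, hz, rfl⟩ := (mem_sup_of_normalizes (Q := P) (P := normalizerIn T P) (fun x hx => hx.2)).1 hg'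
      let κ₁ : MulAut P := conjAut P t ht.2
      let κ₂ : MulAut P := conjAut P z (Subgroup.le_normalizer hz)
      have h2 : κ = κ₁ * κ₂ := by
        refine MulEquiv.ext fun x => Subtype.ext ?_
        rw [h1 x, MulAut.mul_apply, conjAut_apply, conjAut_apply]
        group
      rw [h2]
      refine Subgroup.mul_mem _ (Subgroup.mem_sup_left ?_) (Subgroup.mem_sup_right ?_)
      · have h3 : ∀ x ∈ P, autFun κ₁ x = t * x * t⁻¹ := fun x hx => by rw [autFun_of_mem _ hx]; rfl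
        refine ⟨conjAut_mem_autGroup hPS ht.2 (c.TS ht.1), fun x hx => ?_, ?_⟩
        · rw [h3 x hx]
          have e : x⁻¹ * (t * x * t⁻¹) = (x⁻¹ * t * x) * t⁻¹ := by group
          rw [e]
          exact T.mul_mem (c.norm' (hPS hx) ht.1) (T.inv_mem ht.1)
        · exact (fmap_conj E inf_le_right ht.1).congr fun x hx => (h3 x hx.1).symm
      · rw [inn_eq_autInducedBy]
        exact conjAut_mem_autInducedBy _ hz
    obtain ⟨g, α, hα, hg, hgi, h1⟩ := exists_frattini_ext hS hPa hPr N hN hNn le_sup_left hsupN hMN hf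
    have hNH : N ≤ FH c P hPS := by
      refine sup_le (AA_le_FH c hPS hTC hPa) (fun κ hκ => ?_)
      refine ⟨hInnA hκ, ?_⟩
      rw [inn_eq_autInducedBy] at hκ
      obtain ⟨s, hs, h1⟩ := mem_autInducedBy_iff.1 hκ
      exact (FR_conj c hPS (hPS hs)).congr fun x hx => by rw [autFun_of_mem _ hx]; exact (h1 ⟨x, hx⟩).symm
    have hgF : FR F E p P g := (ih _ g (card_lt_of_lt hltN (hsupN.trans hNS)) hg).restrict le_sup_left
    exact ((hNH hα).2.comp c (fun x hx => autFun_mem _ hx) hgF).congr fun x hx => (h1 x hx).symm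
  · -- move `P ⊓ T`
    have hP₀S : P ⊓ T ≤ S := inf_le_left.trans hPS
    obtain ⟨Q₀, φ, hQ₀, hφ, hφN, hφm⟩ := exists_fullyNormalized_map hS hF hP₀S
    have hnC := not_cent_of_not_tc hS hF hT inf_le_right hTC hφ hQ₀
    have hNN : normalizerIn S P ≤ normalizerIn S (P ⊓ T) := fun s hs => ⟨hs.1, by
      have hf' : Finite (P ⊓ T : Subgroup Ω) := finite_of_le hP₀S
      refine Subgroup.mem_normalizer_fintype fun x hx => ⟨?_, c.norm hs.1 hx.2⟩
      exact (Subgroup.mem_normalizer_iff.1 hs.2 x).1 hx.1⟩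
    have hφN' : FMap F (normalizerIn S P) φ := hφN.restrict hNN
    have hcard : Nat.card P < Nat.card (normalizerIn S P) :=
      card_lt_of_lt (lt_of_lt_of_le hltN hsupN) hNS
    have hφF : FR F E p P φ := (ih _ φ hcard hφN').restrict hPN
    obtain ⟨Q, hQ⟩ := (hφN'.restrict hPN).exists_iso
    have hQS := hQ.le_right
    have hQ₀' : Q ⊓ T = Q₀ := by
      have h1 := fiso_inf hT hQ
      ext y
      rw [h1.mem_iff, hφ.mem_iff]
    have hQn : F.IsFullyNormalized Q := by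
      refine ⟨hQS, fun R hR => ?_⟩
      have h1 : F.IsConj P R := isConj_trans hQ.isConj hR
      refine (hP.2 R h1).trans ?_
      exact hφN'.card_image_le (fun x hx => ⟨hφN'.map_mem hx, hQ.map_normalizer hφN' hPN hx hx.2⟩) (normalizerIn_le S Q)
    obtain ⟨χ, hχ, l1, l2⟩ := hQ.symm
    have hf' : FIso F Q Q (fun y => φ (f (χ y))) := (hχ.trans hf).trans hQ
    obtain ⟨σ, hσ, hσ1⟩ := ext_stabS hS hF hT hQn hf'
    have hlt := lt_sup_stabS hS hT hQS (by rw [hQ₀']; exact hnC)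
    have hσS := hσ.le
    have hσF : FR F E p Q σ := (ih _ σ (by rw [hQ.card_eq]; exact card_lt_of_lt hlt hσS) hσ).restrict le_sup_left
    have h1 : FR F E p Q χ := hφF.inv c hQ l1
    have h2 := (hφF.comp c (fun x hx => hQ.mem hx) hσF).comp c (fun x hx => by
      rw [hσ1 _ (hQ.mem hx)]
      exact hf'.mem (hQ.mem hx)) h1
    refine h2.congr fun x hx => ?_
    rw [hσ1 _ (hQ.mem hx), l1 x hx, l1 _ (hf.mem hx)]

/-- `ET` automorphisms are invariant under isomorphisms of `F` -/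
theorem ET.transport [Finite S] [Fact p.Prime] (c : Cx F E p) (h : ET F E p R R e) (hφ : FIso F R Q φ)
    (hχ : ∀ x ∈ R, χ (φ x) = x) : ET F E p Q Q (fun y => φ (e (χ y))) := by
  obtain ⟨Q₀, φ₀, ψ, h1, h2, h3⟩ := all_FR c R φ hφ.1
  obtain ⟨φ', hφ', e1, e2⟩ := h1.exists_inv c
  have hψ : FIso F Q₀ Q ψ := by
    refine (h2.restrict le_sup_left).fiso_of_card hφ.le_right (fun y hy => ?_) ?_
    · obtain ⟨x, hx, rfl⟩ := h1.iso.mem_iff.1 hy
      rw [← h3 x hx]; exact hφ.mem hx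
    · rw [← hφ.card_eq, h1.iso.card_eq]
  obtain ⟨f', hf', hf1⟩ := ((hφ'.comp h).comp h1).move c h2 le_sup_right le_sup_left hψ hψ
  refine hf'.congr fun y hy => ?_
  obtain ⟨x, hx, rfl⟩ := hφ.mem_iff.1 hy
  have h4 := hf1 _ (h1.iso.mem hx)
  rw [e1 x hx, ← h3 x hx] at h4
  rw [h4, hχ x hx, h3 _ (h.iso.mem hx)]

end Cfsg.Agent.Lib.FusionEB
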