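import Cfsg.Agent.Lib.FusionEB2
import Cfsg.Agent.Lib.FusionPIdx
import Cfsg.Agent.Lib.FusionRes

/-!
A normal subsystem from a pair of systems over the same group.
-/

set_option autoImplicit false
set_option linter.unusedSectionVars false

open Cfsg Cfsg.FusionSystem Cfsg.Agent.Lib.FusionBasic Cfsg.Agent.Lib.FusionSat Cfsg.Agent.Lib.FusionNormal
  Cfsg.Agent.Lib.FusionInvar Cfsg.Agent.Lib.FusionTools Cfsg.Agent.Lib.FusionPP Cfsg.Agent.Lib.FusionStrong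
  Cfsg.Agent.Lib.FusionSys Cfsg.Agent.Lib.FusionFrat Cfsg.Agent.Lib.FusionPrime Cfsg.Agent.Lib.FusionTC
  Cfsg.Agent.Lib.FusionClosed Cfsg.Agent.Lib.FusionStab Cfsg.Agent.Lib.FusionZeta Cfsg.Agent.Lib.FusionES
  Cfsg.Agent.Lib.FusionThmA Cfsg.Agent.Lib.FusionThmA2 Cfsg.Agent.Lib.FusionPIdx Cfsg.Agent.Lib.FusionLemD

namespace Cfsg.Agent.Lib.FusionEB

universe u

variable {Ω : Type u} [Group Ω] {S T U : Subgroup Ω} {F D : FusionSystem S} {E : FusionSystem U}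
  {P Q R M X Y Z P₀ : Subgroup Ω} {a b e f g ψ φ χ : Ω → Ω} {p : ℕ} {t s : Ω}

theorem exists_pow_coprime {G : Type*} [Group G] [Fact p.Prime] {l : G} (h : IsOfFinOrder l) :
    ∃ k : ℕ, (orderOf (l ^ p ^ k)).Coprime p := by
  obtain ⟨k, n, hn, hk⟩ := Nat.exists_eq_pow_mul_and_not_dvd (orderOf_pos_iff.2 h).ne' p (Fact.out : p.Prime).ne_one
  refine ⟨k, ?_⟩
  have h1 : (l ^ p ^ k) ^ n = 1 := by rw [← pow_mul, ← hk, pow_orderOf_eq_one]
  exact (((Fact.out : p.Prime).coprime_iff_not_dvd.2 hn).symm).coprime_dvd_left (orderOf_dvd_of_pow_eq_one h1)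

/-- The context: `D ≤ F` saturated over the same group, `T` strongly closed containing the hyperfocal subgroup of `D`. -/
structure DX (F D : FusionSystem S) (T : Subgroup Ω) (p : ℕ) : Prop where
  hS : IsPGroup p S
  hF : F.IsSaturated p
  hD : D.IsSaturated p
  sub : D.IsSubsystemOf F
  hT : F.StronglyClosed T
  hyp : D.hyperfocalSubgroup p ≤ T
  inv : ∀ (P Q : Subgroup Ω) (f g a : Ω → Ω), P ≤ T → FIso F P Q f → FIso F Q P g → (∀ x ∈ P, g (f x) = x) →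
    (∀ y ∈ Q, f (g y) = y) → PP D p P a → PP D p Q (fun y => f (a (g y)))
  tr : ∀ (P Q : Subgroup Ω) (f g : Ω → Ω) (t : Ω), P ≤ T → FIso F P Q f → FIso F Q P g → (∀ x ∈ P, g (f x) = x) →
    (∀ y ∈ Q, f (g y) = y) → t ∈ normalizerIn T P → FMap D Q (fun y => f (t * g y * t⁻¹))

/-- The family. -/
def AD (F D : FusionSystem S) (T : Subgroup Ω) (p : ℕ) (P : Subgroup Ω) : Subgroup (MulAut P) :=
  Subgroup.closure {α | (α ∈ D.autGroup P ∧ (orderOf α).Coprime p) ∨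
    ∃ (Q : Subgroup Ω) (k : Ω → Ω) (t : Ω), FIso F P Q k ∧ t ∈ normalizerIn T Q ∧ ∀ x : P, k (α x) = t * k x * t⁻¹}

theorem ad_le_of (hT : F.StronglyClosed T) (hPT : P ≤ T) {B : Subgroup (MulAut P)}
    (h1 : ∀ α ∈ D.autGroup P, (orderOf α).Coprime p → α ∈ B)
    (h2 : ∀ (Q : Subgroup Ω) (f g : Ω → Ω) (t : Ω) (α : MulAut P), Q ≤ T → FIso F Q P f → FIso F P Q g →
      (∀ x ∈ Q, g (f x) = x) → (∀ y ∈ P, f (g y) = y) → t ∈ normalizerIn T Q →
      (∀ y ∈ P, autFun α y = f (t * g y * t⁻¹)) → α ∈ B) : AD F D T p P ≤ B := by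
  unfold AD
  rw [Subgroup.closure_le]
  rintro α (⟨h, h'⟩ | ⟨Q, k, t, hk, ht, h⟩)
  · exact h1 α h h'
  · obtain ⟨k', hk', e1, e2⟩ := hk.symm
    have hQT : Q ≤ T := le_of_fiso hT hPT hk
    refine h2 Q k' k t α hQT hk' hk e2 e1 ht (fun y hy => ?_)
    have h3 := h ⟨y, hy⟩
    rw [← h3, e1 _ (α ⟨y, hy⟩).2, autFun_of_mem _ hy]

theorem ad_le (d : DX F D T p) (hPT : P ≤ T) : AD F D T p P ≤ D.autGroup P := by
  refine ad_le_of d.hT hPT (fun α h _ => h) (fun Q f g t α hQT hf hg e1 e2 ht h => ?_)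
  exact (FMap_autFun_iff (hPT.trans d.hT.1)).1 ((d.tr Q P f g t hQT hf hg e1 e2 ht).congr fun y hy => (h y hy).symm)

theorem ad_pp [Fact p.Prime] (h : PP D p P f) : InA (AD F D T p) P f :=
  ⟨h.1.equiv, Subgroup.subset_closure (Or.inl ⟨h.aut_mem, h.order⟩), fun x hx => by
    rw [autFun_of_mem _ hx]; rfl⟩

theorem ad_transport [Fact p.Prime] (d : DX F D T p) (hPT : P ≤ T) (hf : FIso F P Q f) {α : MulAut P}
    (hα : α ∈ AD F D T p P) : hf.autEquiv α ∈ AD F D T p Q := by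
  have hPS := hPT.trans d.hT.1
  obtain ⟨g, hg, e1, e2⟩ := hf.symm
  have h1 : AD F D T p P ≤ (AD F D T p Q).comap hf.autEquiv.toMonoidHom := by
    unfold AD
    rw [Subgroup.closure_le]
    rintro α (⟨h, ho⟩ | ⟨R, k, t, hk, ht, h⟩)
    · have h3 := d.inv P Q f g _ hPT hf hg e1 e2 (pp_of_aut hPS h ho)
      have h4 : FMap D Q (autFun (hf.autEquiv α)) := h3.map.congr fun y hy => by
        obtain ⟨x, hx, rfl⟩ := hf.mem_iff.1 hy
        show f (autFun α (g (f x))) = _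
        rw [e1 x hx, autFun_of_mem _ hy, autFun_of_mem _ hx]
        exact (hf.autEquiv_coe α ⟨x, hx⟩).symm
      refine Subgroup.subset_closure (Or.inl ⟨(FMap_autFun_iff hf.le_right).1 h4, ?_⟩)
      show (orderOf (hf.autEquiv α)).Coprime p
      rw [MulEquiv.orderOf_eq]; exact ho
    · refine Subgroup.subset_closure (Or.inr ⟨R, fun x => k (g x), t, hg.trans hk, ht, fun y => ?_⟩)
      obtain ⟨x, rfl⟩ := hf.equiv.surjective y
      show k (g (hf.autEquiv α (hf.equiv x) : Q)) = t * k (g (hf.equiv x : Q)) * t⁻¹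
      rw [FIso.autEquiv_apply_apply, FIso.equiv_apply, FIso.equiv_apply, e1 _ (α x).2, e1 _ x.2, h]
  exact h1 hα

theorem inD_transport [Fact p.Prime] (d : DX F D T p) (hPT : P ≤ T) (hf : FIso F P Q f) (hg : ∀ x ∈ P, g (f x) = x)
    (ha : InA (AD F D T p) P a) : InA (AD F D T p) Q (fun y => f (a (g y))) := by
  obtain ⟨α, hα, h1⟩ := ha
  refine ⟨hf.autEquiv α, ad_transport d hPT hf hα, fun y hy => ?_⟩
  obtain ⟨x, hx, rfl⟩ := hf.mem_iff.1 hy
  show f (a (g (f x))) = _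
  rw [hg x hx, h1 x hx, autFun_of_mem _ hy, autFun_of_mem _ hx]
  exact (hf.autEquiv_coe α ⟨x, hx⟩).symm

theorem fullyNormalized_D (d : DX F D T p) (hP : F.IsFullyNormalized P) : D.IsFullyNormalized P :=
  ⟨hP.1, fun Q hQ => hP.2 Q (sub_isConj d.sub hQ)⟩

theorem ad_le_of_fullyNormalized [Finite S] [Fact p.Prime] (d : DX F D T p) (hPT : P ≤ T) (hP : F.IsFullyNormalized P) :
    AD F D T p P ≤ (pResidual p (D.autGroup P)).map (D.autGroup P).subtype ⊔ autInducedBy T P := by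
  have hS := d.hS
  have hF := d.hF
  have hT := d.hT
  have hPS := hP.1
  have hPf : Finite P := finite_of_le hPS
  have hPD := fullyNormalized_D d hP
  obtain ⟨O, hO⟩ : ∃ O, O = (pResidual p (D.autGroup P)).map (D.autGroup P).subtype := ⟨_, rfl⟩
  rw [← hO]
  have hOpp : ∀ α ∈ D.autGroup P, (orderOf α).Coprime p → α ∈ O := fun α hα ho => hO ▸ mem_map_resid hα ho
  have hOle : O ≤ D.autGroup P := by rw [hO]; exact Subgroup.map_subtype_le _
  have hOn : ∀ α ∈ D.autGroup P, ∀ κ ∈ O, α * κ * α⁻¹ ∈ O := fun α hα κ hκ => by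
    rw [hO] at hκ ⊢; exact map_resid_conj hα hκ
  have hDF : D.autGroup P ≤ F.autGroup P := sub_autGroup d.sub hPS
  have hDa := (isFullyAutomized_iff hS).1 (fullyAutomized_of_fullyNormalized hS d.hD hPD)
  have hFr := receptive_of_fullyNormalized hS hF hP
  refine ad_le_of hT hPT (fun α h h' => Subgroup.mem_sup_left (hOpp α h h')) (fun Q f g t β hQT hf hg e1 e2 ht h => ?_)
  -- move to `P`
  obtain ⟨l, hl, hlN, hlN'⟩ := exists_map_to_fullyNormalized hS hF hP hf.isConj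
  have htN : t ∈ normalizerIn S Q := ⟨hT.1 ht.1, ht.2⟩
  have hlt := hlN' t htN
  have hltT : l t ∈ T := StronglyClosed.map_mem F hT hlN htN ht.1
  have hgl := hg.trans hl
  obtain ⟨γ, hγ⟩ : ∃ γ : MulAut P, γ = hgl.equiv := ⟨_, rfl⟩
  have hγF : γ ∈ F.autGroup P := hγ ▸ hgl.equiv_mem_autGroup
  have hγ1 : ∀ x ∈ P, autFun γ x = l (g x) := fun x hx => by rw [autFun_of_mem _ hx, hγ]; rfl
  -- the conjugate of `Aut_T(P)` by `γ⁻¹` lies in `D`
  have key : ∀ τ ∈ autInducedBy T P, γ⁻¹ * τ * γ ∈ D.autGroup P := by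
    intro τ hτ
    obtain ⟨u, hu, h1⟩ := mem_autInducedBy_iff.1 hτ
    have huN : u ∈ normalizerIn T P := ⟨hu, mem_normalizer_of_aut h1⟩
    have hγi : FIso F P P (autFun γ) := (fiso_autFun_iff hPS).2 hγF
    have hγi' : FIso F P P (autFun γ⁻¹) := (fiso_autFun_iff hPS).2 (Subgroup.inv_mem _ hγF)
    have h2 := d.tr P P (autFun γ⁻¹) (autFun γ) u hPT hγi' hγi (fun x hx => autFun_apply_inv γ hx)
      (fun x hx => autFun_inv_apply γ hx) huN
    refine (FMap_autFun_iff hPS).1 (h2.congr fun x hx => ?_)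
    have h3 : u * autFun γ x * u⁻¹ = autFun τ (autFun γ x) := by
      rw [autFun_of_mem τ (autFun_mem _ hx)]; exact (h1 ⟨_, autFun_mem γ hx⟩).symm
    rw [h3, autFun_mul _ _ hx, autFun_mul _ _ (autFun_mem _ hx)]
  obtain ⟨K₂, hK₂⟩ : ∃ K₂ : Subgroup (MulAut P), K₂ = (autInducedBy T P).map (MulAut.conj γ⁻¹).toMonoidHom := ⟨_, rfl⟩
  have hK₂D : K₂ ≤ D.autGroup P := by
    rw [hK₂]
    rintro _ ⟨τ, hτ, rfl⟩
    have := key τ hτ
    simpa using this
  have hK₂p : IsPGroup p K₂ := by rw [hK₂]; exact (isPGroup_autInducedBy hS hT.1).map _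
  obtain ⟨T', hT'L, hT'p, hT'1, -, o, ho, ho'⟩ := exists_sylow_pair (D.autGroup P) O (autInducedBy S P) K₂ hOn (fun l hl => by
      obtain ⟨k, hk⟩ := exists_pow_coprime (p := p) (isOfFinOrder_of_finite l)
      exact ⟨k, hOpp _ (Subgroup.pow_mem _ hl _) hk⟩) (autInducedBy_le_autGroup hPS le_rfl) (isPGroup_autInducedBy hS le_rfl)
      hK₂D hK₂p
  have hT'2 := le_of_sylow_le hT'1 hT'L hT'p hDa.2
  -- `ν = o γ⁻¹` extends to `N_T(P)`
  obtain ⟨ν, hν⟩ : ∃ ν : MulAut P, ν = o * γ⁻¹ := ⟨_, rfl⟩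
  have hνF : ν ∈ F.autGroup P := hν ▸ Subgroup.mul_mem _ (hDF (hOle ho)) (Subgroup.inv_mem _ hγF)
  have hνi : FIso F P P (autFun ν) := (fiso_autFun_iff hPS).2 hνF
  have hνc : ∀ τ ∈ autInducedBy T P, ν * τ * ν⁻¹ ∈ autInducedBy S P := by
    intro τ hτ
    have h1 := ho' (γ⁻¹ * τ * γ) (by rw [hK₂]; exact ⟨τ, hτ, by simp⟩)
    have h2 := hT'2 h1
    rwa [show o * (γ⁻¹ * τ * γ) * o⁻¹ = ν * τ * ν⁻¹ by rw [hν]; group] at h2
  obtain ⟨σ, hσ, hσ1⟩ := extend_sup hFr hνi (M := normalizerIn T P) (fun x hx => ⟨hT.1 hx.1, hx.2⟩) (fun u hu => by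
    have h1 := hνc (conjAut P u hu.2) (conjAut_mem_autInducedBy hu.2 hu.1)
    obtain ⟨w, hw, h2⟩ := mem_autInducedBy_iff.1 h1
    refine ⟨w, hw, fun x hx => ?_⟩
    have h3 := h2 ⟨_, autFun_mem ν hx⟩
    have h4 : ((((ν * conjAut P u hu.2 * ν⁻¹ : MulAut P) ⟨_, autFun_mem ν hx⟩ : P)) : Ω) =
        autFun (ν * conjAut P u hu.2 * ν⁻¹) (autFun ν x) := by rw [autFun_of_mem _ (autFun_mem ν hx)]
    rw [h4, autFun_mul _ _ (autFun_mem _ hx), autFun_mul _ _ (autFun_mem _ (autFun_mem _ hx)), autFun_inv_apply ν hx] at h3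
    have h5 : autFun (conjAut P u hu.2) x = u * x * u⁻¹ := by rw [autFun_of_mem _ hx]; rfl
    rwa [h5] at h3)
  have hνT : ∀ τ ∈ autInducedBy T P, ν * τ * ν⁻¹ ∈ autInducedBy T P := by
    intro τ hτ
    obtain ⟨u, hu, h1⟩ := mem_autInducedBy_iff.1 hτ
    have huN : u ∈ normalizerIn T P := ⟨hu, mem_normalizer_of_aut h1⟩
    have huM : u ∈ P ⊔ normalizerIn T P := Subgroup.mem_sup_right huN
    refine mem_autInducedBy_iff.2 ⟨σ u, StronglyClosed.map_mem F hT hσ huM hu, fun x => ?_⟩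
    obtain ⟨w, rfl⟩ := ν.surjective x
    have h2 : (((ν * τ * ν⁻¹ : MulAut P) (ν w) : P) : Ω) = autFun ν (autFun τ (w : Ω)) := by
      rw [autFun_of_mem _ w.2, autFun_of_mem _ (Subtype.coe_prop _)]
      show ((ν (τ (ν⁻¹ (ν w))) : P) : Ω) = _
      rw [MulAut.inv_apply_self]
    have h3 : autFun τ (w : Ω) = u * w * u⁻¹ := by rw [autFun_of_mem _ w.2]; exact h1 w
    have h4 : ((ν w : P) : Ω) = autFun ν (w : Ω) := by rw [autFun_of_mem _ w.2]
    have h5 : u * (w : Ω) * u⁻¹ ∈ P := by rw [← h3]; exact autFun_mem _ w.2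
    rw [h2, h3, h4, ← hσ1 _ h5, ← hσ1 _ w.2, hσ.map_conj huM (Subgroup.mem_sup_left w.2)]
  -- conclusion
  have h1 : γ * β * γ⁻¹ ∈ autInducedBy T P := by
    refine mem_autInducedBy_iff.2 ⟨l t, hltT, fun x => ?_⟩
    obtain ⟨w, rfl⟩ := γ.surjective x
    have h2 : (((γ * β * γ⁻¹ : MulAut P) (γ w) : P) : Ω) = autFun γ (autFun β (w : Ω)) := by
      rw [autFun_of_mem _ w.2, autFun_of_mem _ (Subtype.coe_prop _)]
      show ((γ (β (γ⁻¹ (γ w))) : P) : Ω) = _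
      rw [MulAut.inv_apply_self]
    have h4 : ((γ w : P) : Ω) = autFun γ (w : Ω) := by rw [autFun_of_mem _ w.2]
    have hgw := hg.mem w.2
    have htg : t * g w * t⁻¹ ∈ Q := (Subgroup.mem_normalizer_iff.1 ht.2 _).1 hgw
    rw [h2, h4, hγ1 _ (autFun_mem _ w.2), hγ1 _ w.2, h _ w.2, e1 _ htg, hlN.map_conj htN (le_normalizerIn hg.le_right hgw)]
  have h2 := hνT _ h1
  have h3 : β = o⁻¹ * (ν * (γ * β * γ⁻¹) * ν⁻¹) * o := by rw [hν]; group
  rw [h3]
  exact Subgroup.mul_mem _ (Subgroup.mul_mem _ (Subgroup.mem_sup_left (Subgroup.inv_mem _ ho)) (Subgroup.mem_sup_right h2))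
    (Subgroup.mem_sup_left ho)

/-- a map of `D` on `P` which is induced by a `p'`-automorphism of `Q` in `F` is induced by an automorphism in the family -/
theorem ad_ext [Finite S] [Fact p.Prime] (d : DX F D T p) (hTC : TC F T P) (hP : F.IsFullyNormalized P) (hPQ : P ≤ Q)
    (hQ : Q ≤ normalizerIn T P) (ha : PP F p Q a) (haP : ∀ x ∈ P, a x ∈ P) (haD : FMap D P a) : InA (AD F D T p) Q a := by
  have hS := d.hS
  have hT := d.hT
  have hPT := hTC.1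
  have hQT : Q ≤ T := hQ.trans (normalizerIn_le T P)
  have hQS := hQT.trans hT.1
  have hQf : Finite Q := finite_of_le hQS
  have haPi : FIso F P P a := fiso_restrict ha.map hPQ haP
  have haDi : FIso D P P a := ⟨haD, haPi.2⟩
  have hr : D.IsReceptive P := receptive_of_fullyNormalized hS d.hD (fullyNormalized_D d hP)
  obtain ⟨σ, hσ, hσ1⟩ := extend_sup hr haDi (M := Q) (fun q hq => ⟨hT.1 (hQ hq).1, (hQ hq).2⟩) (fun q hq =>
    ⟨a q, hQS (ha.mem hq), fun x hx => ha.map.map_conj hq (hPQ hx)⟩)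
  rw [sup_eq_right.2 hPQ] at hσ
  have hσF := sub_fmap d.sub hσ
  -- `σ q ∈ a q P`
  have h1 : ∀ q ∈ Q, (a q)⁻¹ * σ q ∈ P := by
    intro q hq
    refine hTC.cent hT ⟨T.mul_mem (T.inv_mem (hQT (ha.mem hq))) (StronglyClosed.map_mem F hT hσF hq (hQT hq)),
      mem_centralizer_iff'.2 fun y hy => ?_⟩
    obtain ⟨x, hx, rfl⟩ := haPi.mem_iff.1 hy
    have h2 : q * x * q⁻¹ ∈ P := (Subgroup.mem_normalizer_iff.1 (hQ hq).2 x).1 hx
    have h3 := ha.map.map_conj hq (hPQ hx)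
    have h4 := hσ.map_conj hq (hPQ hx)
    rw [hσ1 _ h2, hσ1 x hx, h3] at h4
    calc (a q)⁻¹ * σ q * a x * ((a q)⁻¹ * σ q)⁻¹ = (a q)⁻¹ * (σ q * a x * (σ q)⁻¹) * a q := by group
      _ = a x := by rw [← h4]; group
  have hσQ : ∀ q ∈ Q, σ q ∈ Q := fun q hq => by
    have := Q.mul_mem (ha.mem hq) (hPQ (h1 q hq))
    rwa [mul_inv_cancel_left] at this
  have hσi : FIso D Q Q σ := hσ.fiso_of_card hQS hσQ le_rfl
  -- a power of `σ` of order prime to `p`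
  obtain ⟨m, hm, hm'⟩ := ha.2
  obtain ⟨j, hj, hj1⟩ := exists_pp_power (X := P) hσi hm fun x hx => by
    rw [← iter_congr (M := P) (b := σ) (fun x hx => (hσ1 x hx).symm) haP hx]
    exact hm' x (hPQ hx)
  obtain ⟨τ, hτ⟩ : ∃ τ : Ω → Ω, τ = σ^[j] := ⟨_, rfl⟩
  rw [← hτ] at hj hj1
  have hτP : ∀ x ∈ P, τ x = a x := fun x hx => by rw [hj1 x hx, hσ1 x hx]
  have hτF := pp_sub d.sub hj
  -- `τ q ∈ a q P`
  have h1' : ∀ q ∈ Q, (a q)⁻¹ * τ q ∈ P := by
    intro q hq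
    refine hTC.cent hT ⟨T.mul_mem (T.inv_mem (hQT (ha.mem hq))) (hQT (hj.mem hq)),
      mem_centralizer_iff'.2 fun y hy => ?_⟩
    obtain ⟨x, hx, rfl⟩ := haPi.mem_iff.1 hy
    have h2 : q * x * q⁻¹ ∈ P := (Subgroup.mem_normalizer_iff.1 (hQ hq).2 x).1 hx
    have h3 := ha.map.map_conj hq (hPQ hx)
    have h4 := hj.map.map_conj hq (hPQ hx)
    rw [hτP _ h2, hτP x hx, h3] at h4
    calc (a q)⁻¹ * τ q * a x * ((a q)⁻¹ * τ q)⁻¹ = (a q)⁻¹ * (τ q * a x * (τ q)⁻¹) * a q := by group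
      _ = a x := by rw [← h4]; group
  obtain ⟨α, hα⟩ : ∃ α : MulAut Q, α = ha.1.equiv := ⟨_, rfl⟩
  obtain ⟨β, hβ⟩ : ∃ β : MulAut Q, β = hj.1.equiv := ⟨_, rfl⟩
  have hα1 : ∀ x ∈ Q, autFun α x = a x := fun x hx => by rw [autFun_of_mem _ hx, hα]; rfl
  have hβ1 : ∀ x ∈ Q, autFun β x = τ x := fun x hx => by rw [autFun_of_mem _ hx, hβ]; rfl
  have hβD : β ∈ AD F D T p Q := Subgroup.subset_closure (Or.inl ⟨hβ ▸ hj.aut_mem, hβ ▸ hj.order⟩)
  have hαF : α ∈ F.autGroup Q := hα ▸ ha.aut_mem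
  have hτPi : FIso F P P τ := haPi.congr fun x hx => (hτP x hx).symm
  have hδ : ∃ k, (β⁻¹ * α) ^ p ^ k = 1 := by
    refine stab_pow hS hQS hPQ (fun x hx => ?_) (fun x hx => ?_)
    · rw [autFun_mul _ _ (hPQ hx), hα1 x (hPQ hx), ← hτP x hx, ← hβ1 x (hPQ hx), autFun_inv_apply β (hPQ hx)]
    · rw [autFun_mul _ _ hx, hα1 x hx]
      obtain ⟨y, hy⟩ : ∃ y, y = autFun β⁻¹ (a x) := ⟨_, rfl⟩
      have hyQ : y ∈ Q := hy ▸ autFun_mem _ (ha.mem hx)
      have h2 : τ y = a x := by rw [← hβ1 y hyQ, hy, autFun_apply_inv β (ha.mem hx)]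
      rw [← hy]
      have h3 : τ (x⁻¹ * y) ∈ P := by
        rw [hj.map.map_mul (Q.inv_mem hx) hyQ, hj.map.map_inv hx, h2]
        have := P.inv_mem (h1' x hx)
        rwa [mul_inv_rev, inv_inv] at this
      obtain ⟨w, hw, hwe⟩ := hτPi.mem_iff.1 h3
      have h4 : w = x⁻¹ * y := hj.map.inj (hPQ hw) (Q.mul_mem (Q.inv_mem hx) hyQ) hwe
      rw [← h4]; exact hw
  have hαD : α ∈ AD F D T p Q := by
    refine mem_of_pprime (y := β) (δ := β⁻¹ * α) (fun n hn => ?_) hβD (by group) ?_ hδ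
    · have h5 := inD_transport d hQT ((fiso_autFun_iff hQS).2 hαF) (g := autFun α⁻¹) (fun x hx => autFun_inv_apply α hx)
        (inA_aut.2 hn)
      refine inA_aut.1 (h5.congr fun x hx => ?_)
      rw [← autFun_mul _ _ (autFun_mem _ hx), ← autFun_mul _ _ hx, mul_assoc]
    · rw [hα]; exact ha.order
  exact (inA_aut.2 hαD).congr hα1

theorem fam_ad [Finite S] [Fact p.Prime] (d : DX F D T p) : Fam F T p (AD F D T p) where
  le := fun P hP => (ad_le d hP.1).trans (sub_autGroup d.sub (hP.1.trans d.hT.1))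
  equiv := fun P Q f g a hP hf hg ha => inD_transport d hP.1 hf hg ha
  ind := fun P hP _ => by
    intro β hβ
    obtain ⟨t, ht, h1⟩ := mem_autInducedBy_iff.1 hβ
    exact Subgroup.subset_closure (Or.inr ⟨P, fun x => x, t, FIso.refl F (hP.1.trans d.hT.1), ⟨ht, mem_normalizer_of_aut h1⟩, h1⟩)
  syl := fun P hP hPn => by
    rintro β ⟨hβ, hβ'⟩
    have hPS := hPn.1
    have hPD := fullyNormalized_D d hPn
    have hfull := automized_receptive_of_fullyNormalized d.hS d.hD hPD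
    have hOn : autInducedBy T P ≤ Subgroup.normalizer
        (((pResidual p (D.autGroup P)).map (D.autGroup P).subtype : Subgroup (MulAut P)) : Set (MulAut P)) :=
      le_normalizer_of_conj fun α hα κ hκ => map_resid_conj (autInducedBy_le_autGroup (F := D) hPS d.hT.1 hα) hκ
    have h1 := ad_le_of_fullyNormalized d hP.1 hPn hβ
    rw [sup_comm] at h1
    obtain ⟨τ, hτ, o, ho, h2⟩ := (mem_sup_of_normalizes hOn).1 h1
    obtain ⟨o', ho', rfl⟩ := ho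
    have h3 : ((D.autGroup P).subtype o' : MulAut P) ∈ autInducedBy S P := by
      have h4 : (D.autGroup P).subtype o' = τ⁻¹ * β := by rw [← h2]; group
      rw [h4]
      exact mul_mem (inv_mem (autInducedBy_mono d.hT.1 hτ)) hβ'
    have h5 := hyper_aut hfull.1 hfull.2 d.hyp ho' h3
    rw [← h2]
    exact mul_mem hτ h5
  res := fun P Q a hP hPQ hQT _ ha hA haP => by
    obtain ⟨α, hα, h1⟩ := hA
    have h2 : FMap D Q a := ((FMap_autFun_iff (hQT.trans d.hT.1)).2 (ad_le d hQT hα)).congr fun x hx => (h1 x hx).symm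
    have h3 : PP D p Q a := ⟨⟨h2, ha.1.2⟩, ha.2⟩
    exact ad_pp (h3.restrict hPQ haP)
  ext := fun P Q a hP hPn hPQ hQ ha haP hA => by
    obtain ⟨α, hα, h1⟩ := hA
    have h2 : FMap D P a := ((FMap_autFun_iff (hP.1.trans d.hT.1)).2 (ad_le d hP.1 hα)).congr fun x hx => (h1 x hx).symm
    exact ad_ext d hP hPn hPQ hQ ha haP h2

theorem exists_normal [Finite S] [Fact p.Prime] (d : DX F D T p) (hTU : T ≤ U)
    (h1 : ∀ P a, P ≤ T → PP D p P a → FMap E P a)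
    (h2 : ∀ (P Q : Subgroup Ω) (f g : Ω → Ω) (t : Ω), P ≤ T → FIso F P Q f → FIso F Q P g → (∀ x ∈ P, g (f x) = x) →
      (∀ y ∈ Q, f (g y) = y) → t ∈ normalizerIn T P → FMap E Q (fun y => f (t * g y * t⁻¹))) :
    ∃ G : FusionSystem T, G.IsNormalIn F p ∧ G.IsSubsystemOf E := by
  have hA := fam_ad d
  have hW := sysA_weaklyNormal d.hS d.hF d.hT hA
  refine ⟨res (sysA F T (AD F D T p) d.hT.1) p, Cfsg.Agent.Lib.FusionRes.res_isNormalIn d.hS hW, isSubsystemOf_iff.2 fun P f hf => ?_⟩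
  have hf1 : FMap (sysA F T (AD F D T p) d.hT.1) P f := sub_fmap res_sub hf
  refine genSys_le (gn_data hA d.hT.1) hTU (fun P f h => ?_) hf1
  obtain ⟨hTC, α, hα, h3⟩ := h
  have hPT := hTC.1
  have h4 : AD F D T p P ≤ E.autGroup P := by
    refine ad_le_of d.hT hPT (fun α hα ho => ?_) (fun Q f g t α hQT hf hg e1 e2 ht h => ?_)
    · exact (FMap_autFun_iff (hPT.trans hTU)).1 (h1 P _ hPT (pp_of_aut (hPT.trans d.hT.1) hα ho))
    · exact (FMap_autFun_iff (hPT.trans hTU)).1 ((h2 Q P f g t hQT hf hg e1 e2 ht).congr fun y hy => (h y hy).symm)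
  exact ((FMap_autFun_iff (hPT.trans hTU)).2 (h4 hα)).congr fun x hx => (h3 x hx).symm

end Cfsg.Agent.Lib.FusionEB
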