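import Cfsg.Agent.Lib.FusionEB3

/-!
Normal subsystems of the normalizer and of the centralizer of `X` contained in `E`.
-/

set_option autoImplicit false
set_option linter.unusedSectionVars false

open Cfsg Cfsg.FusionSystem Cfsg.Agent.Lib.FusionBasic Cfsg.Agent.Lib.FusionSat Cfsg.Agent.Lib.FusionNormal
  Cfsg.Agent.Lib.FusionInvar Cfsg.Agent.Lib.FusionTools Cfsg.Agent.Lib.FusionPP Cfsg.Agent.Lib.FusionStrong
  Cfsg.Agent.Lib.FusionSys Cfsg.Agent.Lib.FusionFrat Cfsg.Agent.Lib.FusionPrime Cfsg.Agent.Lib.FusionTC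
  Cfsg.Agent.Lib.FusionClosed Cfsg.Agent.Lib.FusionStab Cfsg.Agent.Lib.FusionZeta Cfsg.Agent.Lib.FusionES
  Cfsg.Agent.Lib.FusionThmA Cfsg.Agent.Lib.FusionThmA2 Cfsg.Agent.Lib.FusionPIdx Cfsg.Agent.Lib.FusionLemD
open Cfsg.Agent.Lib.FusionPPower (Same hyperfocal_mono hyperfocal_le_iff)

namespace Cfsg.Agent.Lib.FusionEB

universe u

variable {Ω : Type u} [Group Ω] {S T U V : Subgroup Ω} {F D : FusionSystem S} {E : FusionSystem T}
  {P Q R M X Y Z P₀ : Subgroup Ω} {a b e f g ψ φ χ : Ω → Ω} {p : ℕ} {t s : Ω}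

theorem sup_iso (hf : FMap F (P ⊔ X) f) (h1 : FIso F P Q f) (h2 : FIso F X Y f) : FIso F (P ⊔ X) (Q ⊔ Y) f := by
  obtain ⟨R, hR⟩ := hf.exists_iso
  have h3 : R = Q ⊔ Y := by
    refine le_antisymm (fun y hy => ?_) (sup_le (fun y hy => ?_) (fun y hy => ?_))
    · obtain ⟨x, hx, rfl⟩ := hR.mem_iff.1 hy
      exact map_sup_mem hf (fun x hx => Subgroup.mem_sup_left (h1.mem hx)) (fun x hx => Subgroup.mem_sup_right (h2.mem hx)) x hx
    · obtain ⟨x, hx, rfl⟩ := h1.mem_iff.1 hy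
      exact hR.mem (Subgroup.mem_sup_left hx)
    · obtain ⟨x, hx, rfl⟩ := h2.mem_iff.1 hy
      exact hR.mem (Subgroup.mem_sup_right hx)
  rw [h3] at hR
  exact hR

theorem ET_D [Finite S] (c : Cx F E p) (h : ET F E p P Q f) : FMap (DSys c S c.TS le_rfl) P f :=
  fmap_DSys.2 ⟨h.iso.le_left, DM.of_ET h⟩

/-- `ET` automorphism transported along an isomorphism of `F` -/
theorem transport_data [Finite S] [Fact p.Prime] (c : Cx F E p) (he : ET F E p R R e) (hf : FIso F R Q f) (hg : ∀ x ∈ R, g (f x) = x) :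
    FMap (DSys c S c.TS le_rfl) Q (fun y => f (e (g y))) ∧ FMap E (Q ⊓ T) (fun y => f (e (g y))) := by
  have h := ET.transport c he hf hg
  exact ⟨ET_D c h, h.inE c⟩

/-- extension of a `p'`-automorphism of the normalizer system in `D` -/
theorem norm_pp_ext [Finite S] [Fact p.Prime] {hX : X ≤ S} (ha : PP (normSys D X hX) p P a) :
    ∃ b, PP D p (P ⊔ X) b ∧ (∀ x ∈ P, b x = a x) ∧ FIso D X X b := by
  obtain ⟨hPN, -, g, hg, h1, h2⟩ := fmap_normSys.1 ha.map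
  have hPi : FIso D P P a := ⟨sub_fmap normSys_sub ha.map, ha.1.2⟩
  have hPi' : FIso D P P g := hPi.congr fun x hx => (h1 x hx).symm
  have hgi : FIso D (P ⊔ X) (P ⊔ X) g := sup_iso hg hPi' h2
  obtain ⟨m, hm, hm'⟩ := ha.2
  obtain ⟨j, hj, hj1⟩ := exists_pp_power (X := P) hgi hm fun x hx => by
    rw [← iter_congr (M := P) (b := g) (fun x hx => (h1 x hx).symm) (fun x hx => ha.mem hx) hx]
    exact hm' x hx
  refine ⟨g^[j], hj, fun x hx => by rw [hj1 x hx, h1 x hx], fiso_iter h2 j⟩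

theorem cent_pp_ext [Finite S] [Fact p.Prime] {hX : X ≤ S} (ha : PP (centSys D X hX) p P a) :
    ∃ b, PP D p (P ⊔ X) b ∧ (∀ x ∈ P, b x = a x) ∧ ∀ x ∈ X, b x = x := by
  obtain ⟨hPN, -, g, hg, h1, h2⟩ := fmap_centSys.1 ha.map
  have hPi : FIso D P P a := ⟨sub_fmap centSys_sub ha.map, ha.1.2⟩
  have hPi' : FIso D P P g := hPi.congr fun x hx => (h1 x hx).symm
  have hgi : FIso D (P ⊔ X) (P ⊔ X) g := sup_iso hg hPi' ((FIso.refl D hX).congr fun x hx => (h2 x hx).symm)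
  obtain ⟨m, hm, hm'⟩ := ha.2
  obtain ⟨j, hj, hj1⟩ := exists_pp_power (X := P) hgi hm fun x hx => by
    rw [← iter_congr (M := P) (b := g) (fun x hx => (h1 x hx).symm) (fun x hx => ha.mem hx) hx]
    exact hm' x hx
  refine ⟨g^[j], hj, fun x hx => by rw [hj1 x hx, h1 x hx], fun x hx => ?_⟩
  have : ∀ k : ℕ, g^[k] x = x := by
    intro k
    induction k with
    | zero => rfl
    | succ k ih => rw [Function.iterate_succ_apply', ih, h2 x hx]
  exact this j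

theorem conj_sup_iso [Finite S] (hPS : P ≤ S) (hXS : X ≤ S) {t : Ω} (htS : t ∈ S) (ht : t ∈ Subgroup.normalizer (P : Set Ω))
    (htX : t ∈ Subgroup.normalizer (X : Set Ω)) : FIso F (P ⊔ X) (P ⊔ X) (fun x => t * x * t⁻¹) := by
  have h1 : ∀ {P : Subgroup Ω}, P ≤ S → t ∈ Subgroup.normalizer (P : Set Ω) → FIso F P P (fun x => t * x * t⁻¹) :=
    fun {P} hP ht => (fmap_conj F hP htS).fiso_of_card hP (fun x hx => (Subgroup.mem_normalizer_iff.1 ht x).1 hx) le_rfl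
  exact sup_iso (fmap_conj F (sup_le hPS hXS) htS) (h1 hPS ht) (h1 hXS htX)

theorem ET_conj [Finite S] (hTS : T ≤ S) (hPS : P ≤ S) (hXS : X ≤ S) {t : Ω} (htT : t ∈ T) (ht : t ∈ Subgroup.normalizer (P : Set Ω))
    (htX : t ∈ Subgroup.normalizer (X : Set Ω)) : ET F E p (P ⊔ X) (P ⊔ X) (fun x => t * x * t⁻¹) :=
  ET.conj htT (conj_sup_iso hPS hXS (hTS htT) ht htX)

/-! ### The normalizer -/

theorem norm_tr [Finite S] [Fact p.Prime] (c : Cx F E p) {hX : X ≤ S} (he : ET F E p (P ⊔ X) (P ⊔ X) e)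
    (heP : ∀ x ∈ P, e x ∈ P) (heX : FIso F X X e)
    (hf : FIso (normSys F X hX) P Q f) (hg : ∀ x ∈ P, g (f x) = x) :
    ∃ k, FMap (DSys c S c.TS le_rfl) (Q ⊔ X) k ∧ FMap E ((Q ⊔ X) ⊓ T) k ∧ (∀ y ∈ Q, k y = f (e (g y))) ∧ FIso F X X k ∧
      FIso F (Q ⊔ X) (Q ⊔ X) k ∧ ∃ f₁ g₁, FIso F (P ⊔ X) (Q ⊔ X) f₁ ∧ FIso F (Q ⊔ X) (P ⊔ X) g₁ ∧ (∀ x ∈ P ⊔ X, g₁ (f₁ x) = x) ∧
        (∀ y ∈ Q ⊔ X, f₁ (g₁ y) = y) ∧ ∀ y, k y = f₁ (e (g₁ y)) := by
  obtain ⟨hPN, -, f₁, hf₁, h1, h2⟩ := fmap_normSys.1 hf.1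
  have hPi : FIso F P Q f₁ := ⟨hf₁.restrict le_sup_left, fun y => by
    rw [hf.mem_iff]
    exact ⟨fun ⟨x, hx, h⟩ => ⟨x, hx, by rw [h1 x hx, h]⟩, fun ⟨x, hx, h⟩ => ⟨x, hx, by rw [← h1 x hx, h]⟩⟩⟩
  have hi := sup_iso hf₁ hPi h2
  obtain ⟨g₁, hg₁, e1, e2⟩ := hi.symm
  obtain ⟨k1, k2⟩ := transport_data c he hi e1
  have hgX : FIso F X X g₁ := by
    obtain ⟨g₂, hg₂, e3, e4⟩ := h2.symm
    refine hg₂.congr fun y hy => ?_
    obtain ⟨x, hx, rfl⟩ := h2.mem_iff.1 hy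
    rw [e3 x hx, e1 x (Subgroup.mem_sup_right hx)]
  refine ⟨_, k1, k2, fun y hy => ?_, (hgX.trans heX).trans h2, (hg₁.trans he.iso).trans hi, f₁, g₁, hi, hg₁, e1, e2, fun y => rfl⟩
  obtain ⟨x, hx, rfl⟩ := hf.mem_iff.1 hy
  show f₁ (e (g₁ (f x))) = f (e (g (f x)))
  rw [hg x hx, ← h1 x hx, e1 x (Subgroup.mem_sup_left hx), h1 _ (heP x hx)]

theorem norm_DX [Finite S] [Fact p.Prime] (c : Cx F E p) (hX : F.IsFullyNormalized X) :
    DX (normSys F X hX.1) (normSys (DSys c S c.TS le_rfl) X hX.1) (normalizerIn T X) p where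
  hS := isPGroup_of_le c.hS (normalizerIn_le S X)
  hF := normSys_saturated c.hS c.hF hX
  hD := normSys_saturated (F := DSys c S c.TS le_rfl) c.hS (DSys_saturated c) ⟨hX.1, fun Q hQ => hX.2 Q (sub_isConj DSys_sub hQ)⟩
  sub := by
    rw [isSubsystemOf_iff]
    intro P f hf
    obtain ⟨h1, h2, g, h3, h4, h5⟩ := fmap_normSys.1 hf
    exact fmap_normSys.2 ⟨h1, h2, g, sub_fmap DSys_sub h3, h4, sub_fiso DSys_sub h5⟩
  hT := by
    have hNf : Finite ↥(normalizerIn S X) := finite_of_le (normalizerIn_le S X)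
    rw [stronglyClosed_iff]
    refine ⟨nT_le c.TS, fun P f hP hf x hx => ⟨?_, (hf.map_mem hx).2⟩⟩
    exact StronglyClosed.map_mem F c.hT (sub_fmap normSys_sub hf) hx (hP hx).1
  hyp := by
    have hNf : Finite ↥(normalizerIn S X) := finite_of_le (normalizerIn_le S X)
    refine le_inf ?_ ?_
    · refine (hyperfocal_mono normSys_sub).trans ?_
      exact (DSys_index c).2.1
    · exact (Cfsg.Agent.Lib.FusionHyper.hyp_le).trans inf_le_right
  inv := by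
    intro P Q f g a hPT hf hg e1 e2 ha
    have hNf : Finite ↥(normalizerIn S X) := finite_of_le (normalizerIn_le S X)
    obtain ⟨b, hb, h1, h2⟩ := norm_pp_ext ha
    have hET := pp_ET c hb
    obtain ⟨k, k1, -, k3, k4, k5, f₁, g₁, l1, l2, l3, l4, l5⟩ := norm_tr c hET (fun x hx => by rw [h1 x hx]; exact ha.mem hx)
      (sub_fiso DSys_sub h2) hf e1
    have hkPP : PP F p (Q ⊔ X) k := ((pp_sub DSys_sub hb).transport l1 l2 l3 l4).congr fun y _ => (l5 y).symm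
    have hk' : ∀ y ∈ Q, k y = f (a (g y)) := fun y hy => by rw [k3 y hy, h1 _ (hg.mem hy)]
    have hm : ∀ y ∈ Q, f (a (g y)) ∈ Q := fun y hy => hf.mem (ha.mem (hg.mem hy))
    have hfm : FMap (normSys (DSys c S c.TS le_rfl) X hX.1) Q (fun y => f (a (g y))) :=
      fmap_normSys.2 ⟨hf.le_right, fun y hy => hf.le_right (hm y hy), k, k1, hk', ⟨k1.restrict le_sup_right, k4.2⟩⟩
    have hQ1 : PP F p Q (fun y => f (a (g y))) := (hkPP.restrict le_sup_left (fun y hy => by rw [hk' y hy]; exact hm y hy)).congr hk'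
    exact ⟨⟨hfm, hQ1.1.2⟩, hQ1.2⟩
  tr := by
    intro P Q f g t hPT hf hg e1 e2 ht
    have hPS : P ≤ S := hf.le_left.trans (normalizerIn_le S X)
    have htT : t ∈ T := ht.1.1
    have hET := ET_conj (E := E) (F := F) (p := p) c.TS hPS hX.1 htT ht.2 ht.1.2
    obtain ⟨k, k1, -, k3, k4, -⟩ := norm_tr c hET (fun x hx => (Subgroup.mem_normalizer_iff.1 ht.2 x).1 hx)
      ((fmap_conj F hX.1 (c.TS htT)).fiso_of_card hX.1 (fun x hx => (Subgroup.mem_normalizer_iff.1 ht.1.2 x).1 hx) le_rfl) hf e1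
    exact fmap_normSys.2 ⟨hf.le_right, fun y hy => hf.le_right (hf.mem ((Subgroup.mem_normalizer_iff.1 ht.2 _).1 (hg.mem hy))),
      k, k1, k3, ⟨k1.restrict le_sup_right, k4.2⟩⟩

theorem norm_normal [Finite S] [Fact p.Prime] (c : Cx F E p) (hX : F.IsFullyNormalized X) :
    ∃ G : FusionSystem (normalizerIn T X), G.IsNormalIn (normSys F X hX.1) p ∧ G.IsSubsystemOf E := by
  have hNf : Finite ↥(normalizerIn S X) := finite_of_le (normalizerIn_le S X)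
  refine exists_normal (norm_DX c hX) (normalizerIn_le T X) (fun P a hPT ha => ?_) (fun P Q f g t hPT hf hg e1 e2 ht => ?_)
  · obtain ⟨b, hb, h1, h2⟩ := norm_pp_ext ha
    have h3 := (pp_ET c hb).inE c
    exact (h3.restrict (le_inf le_sup_left (hPT.trans (normalizerIn_le T X)))).congr h1
  · have hPS : P ≤ S := hf.le_left.trans (normalizerIn_le S X)
    have htT : t ∈ T := ht.1.1
    have hET := ET_conj (E := E) (F := F) (p := p) c.TS hPS hX.1 htT ht.2 ht.1.2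
    obtain ⟨k, -, k2, k3, -⟩ := norm_tr c hET (fun x hx => (Subgroup.mem_normalizer_iff.1 ht.2 x).1 hx)
      ((fmap_conj F hX.1 (c.TS htT)).fiso_of_card hX.1 (fun x hx => (Subgroup.mem_normalizer_iff.1 ht.1.2 x).1 hx) le_rfl) hf e1
    have hQT : Q ≤ T := le_of_fiso c.hT (hPT.trans (normalizerIn_le T X)) (sub_fiso normSys_sub hf)
    exact (k2.restrict (le_inf le_sup_left hQT)).congr k3

/-! ### The centralizer -/

theorem cent_tr [Finite S] [Fact p.Prime] (c : Cx F E p) {hX : X ≤ S} (he : ET F E p (P ⊔ X) (P ⊔ X) e)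
    (heP : ∀ x ∈ P, e x ∈ P) (heX : ∀ x ∈ X, e x = x)
    (hf : FIso (centSys F X hX) P Q f) (hg : ∀ x ∈ P, g (f x) = x) :
    ∃ k, FMap (DSys c S c.TS le_rfl) (Q ⊔ X) k ∧ FMap E ((Q ⊔ X) ⊓ T) k ∧ (∀ y ∈ Q, k y = f (e (g y))) ∧ (∀ x ∈ X, k x = x) ∧
      FIso F (Q ⊔ X) (Q ⊔ X) k ∧ ∃ f₁ g₁, FIso F (P ⊔ X) (Q ⊔ X) f₁ ∧ FIso F (Q ⊔ X) (P ⊔ X) g₁ ∧ (∀ x ∈ P ⊔ X, g₁ (f₁ x) = x) ∧
        (∀ y ∈ Q ⊔ X, f₁ (g₁ y) = y) ∧ ∀ y, k y = f₁ (e (g₁ y)) := by
  obtain ⟨hPN, -, f₁, hf₁, h1, h2⟩ := fmap_centSys.1 hf.1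
  have hPi : FIso F P Q f₁ := ⟨hf₁.restrict le_sup_left, fun y => by
    rw [hf.mem_iff]
    exact ⟨fun ⟨x, hx, h⟩ => ⟨x, hx, by rw [h1 x hx, h]⟩, fun ⟨x, hx, h⟩ => ⟨x, hx, by rw [← h1 x hx, h]⟩⟩⟩
  have hi := sup_iso hf₁ hPi ((FIso.refl F hX).congr fun x hx => (h2 x hx).symm)
  obtain ⟨g₁, hg₁, e1, e2⟩ := hi.symm
  obtain ⟨k1, k2⟩ := transport_data c he hi e1
  have hgX : ∀ x ∈ X, g₁ x = x := fun x hx => by
    have h3 := e1 x (Subgroup.mem_sup_right hx)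
    rwa [h2 x hx] at h3
  refine ⟨_, k1, k2, fun y hy => ?_, fun x hx => ?_, (hg₁.trans he.iso).trans hi, f₁, g₁, hi, hg₁, e1, e2, fun y => rfl⟩
  · obtain ⟨x, hx, rfl⟩ := hf.mem_iff.1 hy
    show f₁ (e (g₁ (f x))) = f (e (g (f x)))
    rw [hg x hx, ← h1 x hx, e1 x (Subgroup.mem_sup_left hx), h1 _ (heP x hx)]
  · show f₁ (e (g₁ x)) = x
    rw [hgX x hx, heX x hx, h2 x hx]

theorem cent_DX [Finite S] [Fact p.Prime] (c : Cx F E p) (hX : F.IsFullyCentralized X) :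
    DX (centSys F X hX.1) (centSys (DSys c S c.TS le_rfl) X hX.1) (centralizerIn T X) p where
  hS := isPGroup_of_le c.hS (centralizerIn_le S X)
  hF := centSys_saturated c.hS c.hF hX
  hD := centSys_saturated (F := DSys c S c.TS le_rfl) c.hS (DSys_saturated c) ⟨hX.1, fun Q hQ => hX.2 Q (sub_isConj DSys_sub hQ)⟩
  sub := by
    rw [isSubsystemOf_iff]
    intro P f hf
    obtain ⟨h1, h2, g, h3, h4, h5⟩ := fmap_centSys.1 hf
    exact fmap_centSys.2 ⟨h1, h2, g, sub_fmap DSys_sub h3, h4, h5⟩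
  hT := by
    have hNf : Finite ↥(centralizerIn S X) := finite_of_le (centralizerIn_le S X)
    rw [stronglyClosed_iff]
    refine ⟨fun x hx => ⟨c.TS hx.1, hx.2⟩, fun P f hP hf x hx => ⟨?_, (hf.map_mem hx).2⟩⟩
    exact StronglyClosed.map_mem F c.hT (sub_fmap centSys_sub hf) hx (hP hx).1
  hyp := by
    have hNf : Finite ↥(centralizerIn S X) := finite_of_le (centralizerIn_le S X)
    refine le_inf ?_ ?_
    · refine (hyperfocal_mono centSys_sub).trans ?_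
      exact (DSys_index c).2.1
    · exact (Cfsg.Agent.Lib.FusionHyper.hyp_le).trans inf_le_right
  inv := by
    intro P Q f g a hPT hf hg e1 e2 ha
    obtain ⟨b, hb, h1, h2⟩ := cent_pp_ext ha
    have hET := pp_ET c hb
    obtain ⟨k, k1, -, k3, k4, k5, f₁, g₁, l1, l2, l3, l4, l5⟩ := cent_tr c hET (fun x hx => by rw [h1 x hx]; exact ha.mem hx)
      h2 hf e1
    have hkPP : PP F p (Q ⊔ X) k := ((pp_sub DSys_sub hb).transport l1 l2 l3 l4).congr fun y _ => (l5 y).symm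
    have hk' : ∀ y ∈ Q, k y = f (a (g y)) := fun y hy => by rw [k3 y hy, h1 _ (hg.mem hy)]
    have hm : ∀ y ∈ Q, f (a (g y)) ∈ Q := fun y hy => hf.mem (ha.mem (hg.mem hy))
    have hfm : FMap (centSys (DSys c S c.TS le_rfl) X hX.1) Q (fun y => f (a (g y))) :=
      fmap_centSys.2 ⟨hf.le_right, fun y hy => hf.le_right (hm y hy), k, k1, hk', k4⟩
    have hQ1 : PP F p Q (fun y => f (a (g y))) := (hkPP.restrict le_sup_left (fun y hy => by rw [hk' y hy]; exact hm y hy)).congr hk'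
    exact ⟨⟨hfm, hQ1.1.2⟩, hQ1.2⟩
  tr := by
    intro P Q f g t hPT hf hg e1 e2 ht
    have hPS : P ≤ S := hf.le_left.trans (centralizerIn_le S X)
    have htT : t ∈ T := ht.1.1
    have htX : t ∈ Subgroup.normalizer (X : Set Ω) := (centralizerIn_le_normalizerIn T X ht.1).2
    have hET := ET_conj (E := E) (F := F) (p := p) c.TS hPS hX.1 htT ht.2 htX
    obtain ⟨k, k1, -, k3, k4, -⟩ := cent_tr c hET (fun x hx => (Subgroup.mem_normalizer_iff.1 ht.2 x).1 hx)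
      (fun x hx => mem_centralizer_iff'.1 ht.1.2 x hx) hf e1
    exact fmap_centSys.2 ⟨hf.le_right, fun y hy => hf.le_right (hf.mem ((Subgroup.mem_normalizer_iff.1 ht.2 _).1 (hg.mem hy))),
      k, k1, k3, k4⟩

theorem cent_normal [Finite S] [Fact p.Prime] (c : Cx F E p) (hX : F.IsFullyCentralized X) :
    ∃ G : FusionSystem (centralizerIn T X), G.IsNormalIn (centSys F X hX.1) p ∧ G.IsSubsystemOf E := by
  have hNf : Finite ↥(centralizerIn S X) := finite_of_le (centralizerIn_le S X)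
  refine exists_normal (cent_DX c hX) (centralizerIn_le T X) (fun P a hPT ha => ?_) (fun P Q f g t hPT hf hg e1 e2 ht => ?_)
  · obtain ⟨b, hb, h1, h2⟩ := cent_pp_ext ha
    have h3 := (pp_ET c hb).inE c
    exact (h3.restrict (le_inf le_sup_left (hPT.trans (centralizerIn_le T X)))).congr h1
  · have hPS : P ≤ S := hf.le_left.trans (centralizerIn_le S X)
    have htT : t ∈ T := ht.1.1
    have htX : t ∈ Subgroup.normalizer (X : Set Ω) := (centralizerIn_le_normalizerIn T X ht.1).2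
    have hET := ET_conj (E := E) (F := F) (p := p) c.TS hPS hX.1 htT ht.2 htX
    obtain ⟨k, -, k2, k3, -⟩ := cent_tr c hET (fun x hx => (Subgroup.mem_normalizer_iff.1 ht.2 x).1 hx)
      (fun x hx => mem_centralizer_iff'.1 ht.1.2 x hx) hf e1
    have hQT : Q ≤ T := le_of_fiso c.hT (hPT.trans (centralizerIn_le T X)) (sub_fiso centSys_sub hf)
    exact (k2.restrict (le_inf le_sup_left hQT)).congr k3

end Cfsg.Agent.Lib.FusionEB
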