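import Cfsg.Agent.Lib.H34CfpFus3

/-!
The maps generated by the `p'`-automorphisms of a saturated system `F` that act like elements of a normal subsystem `E`
(over `T`), on subgroups of `S` meeting `T` in a `T`-centric subgroup: basic properties.
-/

set_option autoImplicit false
set_option linter.unusedSectionVars false

open Cfsg Cfsg.FusionSystem Cfsg.Agent.Lib.FusionBasic Cfsg.Agent.Lib.FusionSat Cfsg.Agent.Lib.FusionNormal
  Cfsg.Agent.Lib.FusionInvar Cfsg.Agent.Lib.FusionTools Cfsg.Agent.Lib.FusionPP Cfsg.Agent.Lib.FusionStrong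
  Cfsg.Agent.Lib.FusionSys Cfsg.Agent.Lib.FusionFrat Cfsg.Agent.Lib.FusionPrime Cfsg.Agent.Lib.FusionTC

namespace Cfsg.Agent.Lib.FusionES

variable {Ω : Type*} [Group Ω] {S T : Subgroup Ω} {F : FusionSystem S} {E : FusionSystem T}
  {P Q R U M X Y Z : Subgroup Ω} {a b f g ψ : Ω → Ω} {p : ℕ}

/-- The standing hypotheses. -/
structure Cx (F : FusionSystem S) (E : FusionSystem T) (p : ℕ) : Prop where
  hS : IsPGroup p S
  hF : F.IsSaturated p
  hEs : E.IsSaturated p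
  hE : Inv E F
  hx : Ext E F

theorem Cx.hT (c : Cx F E p) : F.StronglyClosed T := c.hE.closed
theorem Cx.TS (c : Cx F E p) : T ≤ S := c.hE.closed.1
theorem Cx.hTp (c : Cx F E p) : IsPGroup p T := isPGroup_of_le c.hS c.TS
theorem Cx.str (c : Cx F E p) : StrongInv F E := FusionFrat.Inv.strong c.hE
theorem Cx.norm (c : Cx F E p) {s t : Ω} (hs : s ∈ S) (ht : t ∈ T) : s * t * s⁻¹ ∈ T :=
  (Subgroup.mem_normalizer_iff.1 (normalizes_of_stronglyClosed c.hT hs) t).1 ht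
theorem Cx.norm' (c : Cx F E p) {s t : Ω} (hs : s ∈ S) (ht : t ∈ T) : s⁻¹ * t * s ∈ T := by
  have := c.norm (S.inv_mem hs) ht
  rwa [inv_inv] at this

/-- image of the intersection with `T` -/
theorem fiso_inf [Finite S] (hT : F.StronglyClosed T) (hf : FIso F P Q f) : FIso F (P ⊓ T) (Q ⊓ T) f := by
  refine ⟨hf.1.restrict inf_le_left, fun y => ⟨fun hy => ?_, ?_⟩⟩
  · obtain ⟨x, hx, rfl⟩ := hf.mem_iff.1 hy.1
    exact ⟨x, ⟨hx, (strong_mem_iff hT hf.1 hx).2 hy.2⟩, rfl⟩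
  · rintro ⟨x, hx, rfl⟩
    exact ⟨hf.mem hx.1, StronglyClosed.map_mem F hT hf.1 hx.1 hx.2⟩

/-- the basic automorphisms -/
structure AO (F : FusionSystem S) (E : FusionSystem T) (p : ℕ) (Q : Subgroup Ω) (a : Ω → Ω) : Prop where
  pp : PP F p Q a
  tc : TC F T (Q ⊓ T)
  mod : ∀ x ∈ Q, x⁻¹ * a x ∈ T
  inE : FMap E (Q ⊓ T) a

theorem AO.congr (h : AO F E p Q a) (hab : ∀ x ∈ Q, a x = b x) : AO F E p Q b :=
  ⟨h.pp.congr hab, h.tc, fun x hx => by rw [← hab x hx]; exact h.mod x hx, h.inE.congr fun x hx => hab x hx.1⟩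

theorem AO.inv [Finite S] (h : AO F E p Q a) (hT : F.StronglyClosed T) (hE : E.IsSubsystemOf F) :
    ∃ b, AO F E p Q b ∧ (∀ x ∈ Q, b (a x) = x) ∧ ∀ x ∈ Q, a (b x) = x := by
  obtain ⟨b, hb, h1, h2⟩ := h.pp.inv
  have hTf : Finite T := finite_of_le hT.1
  refine ⟨b, ⟨hb, h.tc, fun x hx => ?_, ?_⟩, h1, h2⟩
  · have h3 := h.mod (b x) (hb.mem hx)
    rw [h2 x hx] at h3
    have : x⁻¹ * b x = ((b x)⁻¹ * x)⁻¹ := by group
    rw [this]
    exact T.inv_mem h3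
  · have h4 : FIso F (Q ⊓ T) (Q ⊓ T) a := fiso_inf hT h.pp.1
    have h5 : FIso E (Q ⊓ T) (Q ⊓ T) a := ⟨h.inE, h4.2⟩
    obtain ⟨c, hc, h6, h7⟩ := h5.symm
    refine hc.1.congr fun x hx => ?_
    rw [← h7 x hx]
    rw [h6 _ (hc.mem hx), h1 _ (hc.mem hx).1]

/-- transport of basic automorphisms along isomorphisms of `F` -/
theorem AO.transport [Finite S] (c : Cx F E p) (h : AO F E p Q a) (hf : FIso F Q R f) (hg : FIso F R Q g)
    (hgf : ∀ x ∈ Q, g (f x) = x) (hfg : ∀ y ∈ R, f (g y) = y) : AO F E p R (fun y => f (a (g y))) := by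
  refine ⟨h.pp.transport hf hg hgf hfg, h.tc.conj c.hT (fiso_inf c.hT hf).isConj, fun y hy => ?_, ?_⟩
  · have h1 : f (a (g y)) = f (g y) * f ((g y)⁻¹ * a (g y)) := by
      rw [← hf.1.map_mul (hg.mem hy) (Subgroup.mul_mem _ (Subgroup.inv_mem _ (hg.mem hy)) (h.pp.mem (hg.mem hy)))]
      congr 1; group
    show y⁻¹ * f (a (g y)) ∈ T
    rw [h1, hfg y hy, inv_mul_cancel_left]
    exact StronglyClosed.map_mem F c.hT hf.1 (Subgroup.mul_mem _ (Subgroup.inv_mem _ (hg.mem hy)) (h.pp.mem (hg.mem hy)))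
      (h.mod _ (hg.mem hy))
  · have h2 : FIso F (Q ⊓ T) (R ⊓ T) f := fiso_inf c.hT hf
    have h3 : FIso E (Q ⊓ T) (Q ⊓ T) a := ⟨h.inE, (fiso_inf c.hT h.pp.1).2⟩
    exact c.str.transport inf_le_right h2 (fun x hx => hgf x hx.1) h3

theorem AO.restrict [Finite S] (c : Cx F E p) (h : AO F E p Q a) (hRQ : R ≤ Q) (hR : ∀ x ∈ R, a x ∈ R)
    (htc : TC F T (R ⊓ T)) : AO F E p R a :=
  ⟨h.pp.restrict hRQ hR, htc, fun x hx => h.mod x (hRQ hx), h.inE.restrict (inf_le_inf_right _ hRQ)⟩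

/-- the isomorphisms generated by the basic automorphisms and conjugations by elements of `T` -/
inductive ET (F : FusionSystem S) (E : FusionSystem T) (p : ℕ) : Subgroup Ω → Subgroup Ω → (Ω → Ω) → Prop
  | base {R P Q : Subgroup Ω} {a : Ω → Ω} : AO F E p R a → P ≤ R → FIso F P Q a → ET F E p P Q a
  | conj {P Q : Subgroup Ω} {t : Ω} : t ∈ T → FIso F P Q (fun x => t * x * t⁻¹) → ET F E p P Q (fun x => t * x * t⁻¹)
  | comp {P Q R : Subgroup Ω} {f g : Ω → Ω} : ET F E p P Q f → ET F E p Q R g → ET F E p P R (fun x => g (f x))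
  | congr {P Q : Subgroup Ω} {f g : Ω → Ω} : ET F E p P Q f → (∀ x ∈ P, f x = g x) → ET F E p P Q g

theorem ET.iso (h : ET F E p P Q f) : FIso F P Q f := by
  induction h with
  | base _ _ h => exact h
  | conj _ h => exact h
  | comp _ _ h1 h2 => exact h1.trans h2
  | congr _ h1 h2 => exact h2.congr h1

theorem ET.mod (c : Cx F E p) (h : ET F E p P Q f) : ∀ x ∈ P, x⁻¹ * f x ∈ T := by
  induction h with
  | base h1 h2 h3 => exact fun x hx => h1.mod x (h2 hx)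
  | conj h1 h2 =>
    intro x hx
    have h3 := c.norm' (h2.le_left hx) h1
    rw [← mul_assoc, ← mul_assoc]
    exact T.mul_mem h3 (T.inv_mem h1)
  | @comp P Q R f g h1 h2 ih1 ih2 =>
    intro x hx
    have e : x⁻¹ * g (f x) = (x⁻¹ * f x) * ((f x)⁻¹ * g (f x)) := by group
    rw [e]
    exact T.mul_mem (ih1 x hx) (ih2 _ (h1.iso.mem hx))
  | congr h1 h2 ih => exact fun x hx => by rw [← h2 x hx]; exact ih x hx

theorem ET.inE [Finite S] (c : Cx F E p) (h : ET F E p P Q f) : FMap E (P ⊓ T) f := by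
  induction h with
  | base h1 h2 h3 => exact h1.inE.restrict (inf_le_inf_right _ h2)
  | conj h1 h2 => exact fmap_conj E inf_le_right h1
  | @comp P Q R f g h1 h2 ih1 ih2 =>
    exact ih1.comp ih2 fun x hx => (fiso_inf c.hT h1.iso).mem hx
  | congr h1 h2 ih => exact ih.congr fun x hx => h2 x hx.1

theorem ET.isoE [Finite S] (c : Cx F E p) (h : ET F E p P Q f) : FIso E (P ⊓ T) (Q ⊓ T) f :=
  ⟨h.inE c, (fiso_inf c.hT h.iso).2⟩

theorem ET.restrict (h : ET F E p P Q f) : ∀ {P' Q' : Subgroup Ω}, P' ≤ P → FIso F P' Q' f → ET F E p P' Q' f := by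
  induction h with
  | base h1 h2 h3 => exact fun h4 h5 => ET.base h1 (h4.trans h2) h5
  | conj h1 h2 => exact fun h4 h5 => ET.conj h1 h5
  | @comp P Q R f g h1 h2 ih1 ih2 =>
    intro P' Q' h4 h5
    obtain ⟨X, hX⟩ := (h1.iso.1.restrict h4).exists_iso
    have hXQ : X ≤ Q := fun y hy => by
      obtain ⟨x, hx, rfl⟩ := hX.mem_iff.1 hy
      exact h1.iso.mem (h4 hx)
    have hg : FIso F X Q' g := ⟨h2.iso.1.restrict hXQ, fun y => by
      rw [h5.mem_iff]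
      constructor
      · rintro ⟨x, hx, rfl⟩; exact ⟨f x, hX.mem hx, rfl⟩
      · rintro ⟨x, hx, rfl⟩
        obtain ⟨z, hz, rfl⟩ := hX.mem_iff.1 hx
        exact ⟨z, hz, rfl⟩⟩
    exact (ih1 h4 hX).comp (ih2 hXQ hg)
  | @congr P Q f g h1 h2 ih =>
    intro P' Q' h4 h5
    exact (ih h4 (h5.congr fun x hx => (h2 x (h4 hx)).symm)).congr fun x hx => h2 x (h4 hx)

theorem ET.exists_restrict (h : ET F E p P Q f) {P' : Subgroup Ω} (hP : P' ≤ P) : ∃ Q', ET F E p P' Q' f := by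
  obtain ⟨Q', hQ'⟩ := (h.iso.1.restrict hP).exists_iso
  exact ⟨Q', h.restrict hP hQ'⟩

theorem ET.id (hP : P ≤ S) : ET F E p P P (fun x => x) :=
  (ET.conj (F := F) (E := E) (p := p) (P := P) (Q := P) (t := 1) T.one_mem
    ((FIso.refl F hP).congr fun x _ => by group)).congr fun x _ => by group

theorem ET.inv [Finite S] (c : Cx F E p) (h : ET F E p P Q f) : ∀ {g : Ω → Ω}, (∀ x ∈ P, g (f x) = x) →
    ET F E p Q P g := by
  induction h with
  | @base R P Q a h1 h2 h3 =>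
    intro g hg
    obtain ⟨b, hb, h4, h5⟩ := h1.inv c.hT c.hE.sub
    have hQR : Q ≤ R := fun y hy => by
      obtain ⟨x, hx, rfl⟩ := h3.mem_iff.1 hy
      exact h1.pp.mem (h2 hx)
    have h6 : FIso F Q P b := ⟨hb.pp.map.restrict hQR, fun y => by
      constructor
      · intro hy; exact ⟨a y, h3.mem hy, h4 y (h2 hy)⟩
      · rintro ⟨x, hx, rfl⟩
        obtain ⟨z, hz, rfl⟩ := h3.mem_iff.1 hx
        rwa [h4 z (h2 hz)]⟩
    refine (ET.base hb hQR h6).congr fun y hy => ?_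
    obtain ⟨x, hx, rfl⟩ := h3.mem_iff.1 hy
    rw [h4 x (h2 hx), hg x hx]
  | @conj P Q t h1 h2 =>
    intro g hg
    have h6 : FIso F Q P (fun x => t⁻¹ * x * t⁻¹⁻¹) := by
      refine ⟨fmap_conj F h2.le_right (S.inv_mem (c.TS h1)), fun y => ?_⟩
      constructor
      · intro hy; exact ⟨_, h2.mem hy, by group⟩
      · rintro ⟨x, hx, rfl⟩
        obtain ⟨z, hz, rfl⟩ := h2.mem_iff.1 hx
        have : t⁻¹ * (t * z * t⁻¹) * t⁻¹⁻¹ = z := by group
        show t⁻¹ * (t * z * t⁻¹) * t⁻¹⁻¹ ∈ P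
        rwa [this]
    refine (ET.conj (T.inv_mem h1) h6).congr fun y hy => ?_
    obtain ⟨x, hx, rfl⟩ := h2.mem_iff.1 hy
    rw [hg x hx]; group
  | @comp P Q R f g h1 h2 ih1 ih2 =>
    intro k hk
    obtain ⟨f', hf', e1, e2⟩ := h1.iso.symm
    obtain ⟨g', hg', e3, e4⟩ := h2.iso.symm
    refine ((ih2 e3).comp (ih1 e1)).congr fun y hy => ?_
    obtain ⟨x, hx, rfl⟩ := h2.iso.mem_iff.1 hy
    obtain ⟨z, hz, rfl⟩ := h1.iso.mem_iff.1 hx
    show f' (g' (g (f z))) = k (g (f z))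
    rw [e3 _ hx, e1 z hz, hk z hz]
  | @congr P Q f g h1 h2 ih =>
    intro k hk
    exact ih fun x hx => by rw [h2 x hx]; exact hk x hx

theorem ET.exists_inv [Finite S] (c : Cx F E p) (h : ET F E p P Q f) :
    ∃ g, ET F E p Q P g ∧ (∀ x ∈ P, g (f x) = x) ∧ ∀ y ∈ Q, f (g y) = y := by
  obtain ⟨g, hg, h1, h2⟩ := h.iso.symm
  exact ⟨g, h.inv c h1, h1, h2⟩

theorem ET.le_of_le (c : Cx F E p) (h : ET F E p P Q f) (hTR : T ≤ R) (hPR : P ≤ R) : Q ≤ R := by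
  intro y hy
  obtain ⟨x, hx, rfl⟩ := h.iso.mem_iff.1 hy
  have : f x = x * (x⁻¹ * f x) := by group
  rw [this]
  exact R.mul_mem (hPR hx) (hTR (h.mod c x hx))

/-- the generated maps are permuted by the maps of `F` defined on a subgroup containing `T` -/
theorem ET.move [Finite S] (c : Cx F E p) (h : ET F E p P Q f) : ∀ {P' Q' : Subgroup Ω}, FMap F R ψ → T ≤ R → P ≤ R →
    FIso F P P' ψ → FIso F Q Q' ψ → ∃ f', ET F E p P' Q' f' ∧ ∀ x ∈ P, f' (ψ x) = ψ (f x) := by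
  induction h with
  | @base U P Q a h1 h2 h3 =>
    intro P' Q' hψ hTR hPR hP hQ
    have hmap : ∀ x ∈ U ⊓ R, a x ∈ U ⊓ R := fun x hx => ⟨h1.pp.mem hx.1, by
      have : a x = x * (x⁻¹ * a x) := by group
      rw [this]
      exact R.mul_mem hx.2 (hTR (h1.mod x hx.1))⟩
    have htc : TC F T (U ⊓ R ⊓ T) := by
      have e : U ⊓ R ⊓ T = U ⊓ T := by
        ext x; constructor
        · rintro ⟨⟨h1, h2⟩, h3⟩; exact ⟨h1, h3⟩
        · rintro ⟨h1, h3⟩; exact ⟨⟨h1, hTR h3⟩, h3⟩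
      rw [e]; exact h1.tc
    have h4 := h1.restrict c inf_le_left hmap htc
    obtain ⟨V, hV⟩ := (hψ.restrict (inf_le_right : U ⊓ R ≤ R)).exists_iso
    obtain ⟨φ, hφ, e1, e2⟩ := hV.symm
    have h5 := h4.transport c hV hφ e1 e2
    have hP'V : P' ≤ V := fun y hy => by
      obtain ⟨x, hx, rfl⟩ := hP.mem_iff.1 hy
      exact hV.mem ⟨h2 hx, hPR hx⟩
    have hval : ∀ x ∈ P, ψ (a (φ (ψ x))) = ψ (a x) := fun x hx => by rw [e1 x ⟨h2 hx, hPR hx⟩]
    refine ⟨_, ET.base h5 hP'V ⟨h5.pp.map.restrict hP'V, fun y => ?_⟩, hval⟩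
    rw [hQ.mem_iff]
    constructor
    · rintro ⟨x, hx, rfl⟩
      obtain ⟨z, hz, rfl⟩ := h3.mem_iff.1 hx
      exact ⟨ψ z, hP.mem hz, hval z hz⟩
    · rintro ⟨x, hx, rfl⟩
      obtain ⟨z, hz, rfl⟩ := hP.mem_iff.1 hx
      exact ⟨a z, h3.mem hz, (hval z hz).symm⟩
  | @conj P Q t h1 h2 =>
    intro P' Q' hψ hTR hPR hP hQ
    have hval : ∀ x ∈ P, ψ t * ψ x * (ψ t)⁻¹ = ψ (t * x * t⁻¹) := fun x hx => (hψ.map_conj (hTR h1) (hPR hx)).symm
    refine ⟨fun x => ψ t * x * (ψ t)⁻¹, ET.conj (StronglyClosed.map_mem F c.hT hψ (hTR h1) h1) ⟨?_, fun y => ?_⟩, hval⟩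
    · exact fmap_conj F hP.le_right (hψ.map_mem (hTR h1))
    · rw [hQ.mem_iff]
      constructor
      · rintro ⟨x, hx, rfl⟩
        obtain ⟨z, hz, rfl⟩ := h2.mem_iff.1 hx
        exact ⟨ψ z, hP.mem hz, hval z hz⟩
      · rintro ⟨x, hx, rfl⟩
        obtain ⟨z, hz, rfl⟩ := hP.mem_iff.1 hx
        exact ⟨_, h2.mem hz, (hval z hz).symm⟩
  | @comp P Q V f g h1 h2 ih1 ih2 =>
    intro P' V' hψ hTR hPR hP hV
    have hQR : Q ≤ R := h1.le_of_le c hTR hPR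
    obtain ⟨Q', hQ'⟩ := (hψ.restrict hQR).exists_iso
    obtain ⟨f', hf', e1⟩ := ih1 hψ hTR hPR hP hQ'
    obtain ⟨g', hg', e2⟩ := ih2 hψ hTR hQR hQ' hV
    exact ⟨_, hf'.comp hg', fun x hx => by
      show g' (f' (ψ x)) = ψ (g (f x))
      rw [e1 x hx, e2 _ (h1.iso.mem hx)]⟩
  | @congr P Q f g h1 h2 ih =>
    intro P' Q' hψ hTR hPR hP hQ
    obtain ⟨f', hf', e1⟩ := ih hψ hTR hPR hP hQ
    exact ⟨f', hf', fun x hx => by rw [e1 x hx, h2 x hx]⟩

end Cfsg.Agent.Lib.FusionES
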