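import Cfsg.Agent.Lib.FusionES1
import Cfsg.Agent.Lib.FusionSemi
import Cfsg.Agent.Lib.FusionLemD

/-!
The local groups at the `T`-centric fully normalized subgroups.
-/

set_option autoImplicit false
set_option linter.unusedSectionVars false

universe u

open Cfsg Cfsg.FusionSystem Cfsg.Agent.Lib.FusionBasic Cfsg.Agent.Lib.FusionSat Cfsg.Agent.Lib.FusionNormal
  Cfsg.Agent.Lib.FusionInvar Cfsg.Agent.Lib.FusionTools Cfsg.Agent.Lib.FusionPP Cfsg.Agent.Lib.FusionStrong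
  Cfsg.Agent.Lib.FusionSys Cfsg.Agent.Lib.FusionFrat Cfsg.Agent.Lib.FusionPrime Cfsg.Agent.Lib.FusionTC
  Cfsg.Agent.Lib.FusionClosed Cfsg.Agent.Lib.FusionStab Cfsg.Agent.Lib.FusionZeta
  Cfsg.Agent.Lib.FusionGroup Cfsg.Agent.Lib.FusionModel Cfsg.Agent.Lib.FusionRealized
  Cfsg.Agent.Lib.FusionNormSat Cfsg.Agent.Lib.H34Local Cfsg.Agent.Lib.H34CfpFus

namespace Cfsg.Agent.Lib.FusionES

variable {Ω : Type u} [Group Ω] {S T : Subgroup Ω} {F : FusionSystem S} {E : FusionSystem T}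
  {P Q R U M X Y Z : Subgroup Ω} {a b f g ψ : Ω → Ω} {p : ℕ}

/-- The group attached to a `T`-centric fully normalized subgroup. -/
theorem exists_grp2 [Finite S] [Fact p.Prime] (hS : IsPGroup p S) (hF : F.IsSaturated p) (hEs : E.IsSaturated p)
    (hE : Inv E F) (hTC : TC F T P) (hP : F.IsFullyNormalized P) :
    ∃ (G : Type u) (_ : Group G) (_ : Finite G) (ι : ↥(normalizerIn S P) →* G) (L : FusionSystem (normalizerIn S P))
      (S₀ : Sylow p G) (B : Subgroup G), L.IsRealizedBy ι ∧ L.IsSubsystemOf F ∧ (S₀ : Subgroup G) = ι.range ∧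
      Subgroup.centralizer (im ι (P ⊔ centralizerIn S P) : Set G) ≤ im ι (P ⊔ centralizerIn S P) ∧
      H34Cfp.Setup S₀ B (im ι (normalizerIn T P)) (im ι (centralizerIn S P)) (im ι P) ∧
      (∀ a, Good F E p P a → ∃ g ∈ B, ¬ p ∣ orderOf g ∧ ∀ x ∈ P ⊔ centralizerIn S P, lift ι (a x) = g * lift ι x * g⁻¹) ∧
      (∀ g ∈ B, ¬ p ∣ orderOf g → ∃ a, Good F E p P a ∧
        ∀ x ∈ P ⊔ centralizerIn S P, lift ι (a x) = g * lift ι x * g⁻¹) := by
  obtain ⟨G, i1, i2, ι, L, hL, ⟨S₀, hS₀⟩, hn, hc, hLF, hL1, hL2⟩ := exists_pmodel hS hF hP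
  have hPS := hP.1
  have hT := hE.closed
  have hTS := hT.1
  have hTp := isPGroup_of_le hS hTS
  have hTf : Finite T := finite_of_le hTS
  have hNS : normalizerIn S P ≤ S := normalizerIn_le S P
  have hNf : Finite (normalizerIn S P) := finite_of_le hNS
  have hQN := le_norm_sup (S := S) hPS
  have hQS := hQN.trans hNS
  have hPQ : P ≤ P ⊔ centralizerIn S P := le_sup_left
  have hCQ : centralizerIn S P ≤ P ⊔ centralizerIn S P := le_sup_right
  have hPN : P ≤ normalizerIn S P := hPQ.trans hQN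
  have hCN : centralizerIn S P ≤ normalizerIn S P := hCQ.trans hQN
  have hTPN : normalizerIn T P ≤ normalizerIn S P := fun x hx => ⟨hTS hx.1, hx.2⟩
  have hPT : P ≤ T := hTC.1
  have hPTP : P ≤ normalizerIn T P := le_normalizerIn hPT
  have hinj : Function.Injective ι := hL.1
  have hstr := FusionFrat.Inv.strong hE
  have hPEn := fullyNormalized_sub hS hF hT hE.sub hPT hP
  have hPEa := fullyAutomized_of_fullyNormalized hTp hEs hPEn
  have himle : ∀ {X : Subgroup Ω}, im ι X ≤ (S₀ : Subgroup G) := by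
    rintro X _ ⟨x, -, rfl⟩
    rw [hS₀]; exact ⟨x, rfl⟩
  -- maps on `Q` induced by elements of `G`
  have hmapQ : ∀ g : G, ∃ a, FMap L (P ⊔ centralizerIn S P) a ∧ (∀ x ∈ P ⊔ centralizerIn S P, lift ι (a x) = g * lift ι x * g⁻¹) ∧
      (∀ x ∈ P, a x ∈ P) ∧ ∀ x ∈ centralizerIn S P, a x ∈ centralizerIn S P := by
    intro g
    obtain ⟨a, ha, ha1⟩ := exists_fmap_of_conj hL hQN g (fun x hx => by
      have h7 : lift ι x ∈ im ι (P ⊔ centralizerIn S P) := (mem_im_iff' hQN).2 ⟨x, hx, rfl⟩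
      obtain ⟨w, -, hw⟩ := hn.conj_mem _ h7 g
      exact ⟨w, hw⟩)
    obtain ⟨h1, h2⟩ := hL2 a ha
    exact ⟨a, ha, ha1, h1, h2⟩
  have hPn : (im ι P).Normal := ⟨fun y hy g => by
    obtain ⟨x, hx, rfl⟩ := (mem_im_iff' hPN).1 hy
    obtain ⟨a, -, h2, h3, -⟩ := hmapQ g
    rw [← h2 x (hPQ hx)]
    exact (mem_im_iff' hPN).2 ⟨_, h3 x hx, rfl⟩⟩
  have hVn : (im ι (centralizerIn S P)).Normal := ⟨fun y hy g => by
    obtain ⟨x, hx, rfl⟩ := (mem_im_iff' hCN).1 hy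
    obtain ⟨a, -, h2, -, h3⟩ := hmapQ g
    rw [← h2 x (hCQ hx)]
    exact (mem_im_iff' hCN).2 ⟨_, h3 x hx, rfl⟩⟩
  -- the condition on the action on `P`
  let EC : G → Prop := fun g => ∃ f, FIso E P P f ∧ ∀ x ∈ P, lift ι (f x) = g * lift ι x * g⁻¹
  have EC1 : EC 1 := ⟨fun x => x, FIso.refl E hPT, fun x _ => by group⟩
  have ECmul : ∀ g k, EC g → EC k → EC (g * k) := by
    rintro g k ⟨f, hf, h1⟩ ⟨f', hf', h2⟩
    refine ⟨fun x => f (f' x), hf'.trans hf, fun x hx => ?_⟩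
    show lift ι (f (f' x)) = _
    rw [h1 _ (hf'.mem hx), h2 x hx]; group
  have ECinv : ∀ g, EC g → EC g⁻¹ := by
    rintro g ⟨f, hf, h1⟩
    obtain ⟨f', hf', h2, h3⟩ := hf.symm
    refine ⟨f', hf', fun x hx => ?_⟩
    have h4 := h1 _ (hf'.mem hx)
    rw [h3 x hx] at h4
    rw [h4]; group
  let M : Subgroup G :=
    { carrier := {g | EC g ∧ ∀ v ∈ im ι (centralizerIn S P), v⁻¹ * (g * v * g⁻¹) ∈ im ι P}
      one_mem' := ⟨EC1, fun v _ => by
        have : v⁻¹ * (1 * v * (1 : G)⁻¹) = 1 := by group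
        rw [this]; exact Subgroup.one_mem _⟩
      mul_mem' := by
        rintro g k ⟨h1, h2⟩ ⟨h3, h4⟩
        refine ⟨ECmul _ _ h1 h3, fun v hv => ?_⟩
        have e : v⁻¹ * (g * k * v * (g * k)⁻¹) = (v⁻¹ * (g * v * g⁻¹)) * (g * (v⁻¹ * (k * v * k⁻¹)) * g⁻¹) := by group
        rw [e]
        exact Subgroup.mul_mem _ (h2 v hv) (hPn.conj_mem _ (h4 v hv) g)
      inv_mem' := by
        rintro g ⟨h1, h2⟩
        refine ⟨ECinv _ h1, fun v hv => ?_⟩
        have h3 := h2 (g⁻¹ * v * g⁻¹⁻¹) (hVn.conj_mem v hv g⁻¹)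
        have e2 : (g⁻¹ * v * g⁻¹⁻¹)⁻¹ * (g * (g⁻¹ * v * g⁻¹⁻¹) * g⁻¹) = (v⁻¹ * (g⁻¹ * v * g⁻¹⁻¹))⁻¹ := by group
        rw [e2] at h3
        exact inv_mem_iff.1 h3 }
  have hMn : ∀ g k : G, g ∈ M → k * g * k⁻¹ ∈ M := by
    rintro g k ⟨⟨f, hf, h1⟩, h2⟩
    obtain ⟨a, ha, ha1, ha2, -⟩ := hmapQ k
    have haF : FMap F (P ⊔ centralizerIn S P) a := sub_fmap hLF ha
    have haP : FIso F P P a := fiso_restrict haF hPQ ha2
    obtain ⟨a', ha', e1, e2⟩ := haP.symm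
    refine ⟨⟨fun y => a (f (a' y)), ?_, ?_⟩, ?_⟩
    · have h3 : FMap E P (fun y => a (f (a' y))) := hstr.transport hPT haP e1 hf
      exact ⟨h3, (((ha'.trans (sub_fiso hE.sub hf)).trans haP)).2⟩
    · intro x hx
      show lift ι (a (f (a' x))) = _
      have hx' := ha'.mem hx
      have h4 := ha1 _ (hPQ hx')
      rw [e2 x hx] at h4
      rw [ha1 _ (hPQ (hf.mem hx')), h1 _ hx', h4]
      group
    · intro v hv
      have h3 := h2 (k⁻¹ * v * k⁻¹⁻¹) (hVn.conj_mem v hv k⁻¹)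
      have e : v⁻¹ * (k * g * k⁻¹ * v * (k * g * k⁻¹)⁻¹) =
          k * ((k⁻¹ * v * k⁻¹⁻¹)⁻¹ * (g * (k⁻¹ * v * k⁻¹⁻¹) * g⁻¹)) * k⁻¹ := by group
      rw [e]
      exact hPn.conj_mem _ h3 k
  set B : Subgroup G := Subgroup.closure {g | g ∈ M ∧ ¬ p ∣ orderOf g} with hB
  have hBM : B ≤ M := by
    rw [hB, Subgroup.closure_le]; exact fun g hg => hg.1
  have hBn : B.Normal := by
    refine ⟨fun g hg k => ?_⟩
    have hle : B ≤ B.comap (MulAut.conj k).toMonoidHom := by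
      rw [hB, Subgroup.closure_le]
      rintro x ⟨hx1, hx2⟩
      refine Subgroup.subset_closure ⟨hMn x k hx1, ?_⟩
      have : orderOf ((MulAut.conj k) x) = orderOf x := orderOf_injective (MulAut.conj k).toMonoidHom (MulAut.conj k).injective x
      show ¬ p ∣ orderOf ((MulAut.conj k) x)
      rw [this]; exact hx2
    exact hle hg
  refine ⟨G, i1, i2, ι, L, S₀, B, hL, hLF, hS₀, hc, ⟨?_, himle, himle, hVn, hPn, hBn, ?_, ?_, fun b hb => (hBM hb).2, ?_⟩, ?_, ?_⟩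
  · exact Subgroup.map_mono (fun x hx => hPTP hx)
  · -- strongly closed
    intro t ht g hgt
    obtain ⟨t, ht', rfl⟩ := (mem_im_iff' hTPN).1 ht
    have htN := hTPN ht'
    have hz : Subgroup.zpowers t ≤ normalizerIn S P := by rw [Subgroup.zpowers_le]; exact htN
    obtain ⟨f, hf, hf1⟩ := exists_fmap_of_conj hL hz g (fun x hx => by
      obtain ⟨k, rfl⟩ := Subgroup.mem_zpowers_iff.1 hx
      have e : g * lift ι (t ^ k) * g⁻¹ = (g * lift ι t * g⁻¹) ^ k := by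
        rw [conj_zpow, lift_of_mem (Subgroup.zpow_mem _ htN k), lift_of_mem htN, ← map_zpow]
        rfl
      rw [e]
      rw [hS₀] at hgt
      exact Subgroup.zpow_mem _ hgt k)
    have h2 := hf1 t (Subgroup.mem_zpowers t)
    rw [← h2]
    refine (mem_im_iff' hTPN).2 ⟨f t, ⟨StronglyClosed.map_mem F hT (sub_fmap hLF hf) (Subgroup.mem_zpowers t) ht'.1,
      (hf.map_mem (Subgroup.mem_zpowers t)).2⟩, rfl⟩
  · -- generation
    rw [hB]
    refine Subgroup.closure_mono ?_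
    rintro g ⟨h1, h2⟩
    exact ⟨Subgroup.subset_closure ⟨h1, h2⟩, h2⟩
  · -- the Sylow subgroup
    intro s hsB hsS
    rw [hS₀] at hsS
    obtain ⟨⟨s, hs⟩, rfl⟩ := hsS
    obtain ⟨⟨f, hf, h1⟩, -⟩ := hBM hsB
    have hls : lift ι s = ι ⟨s, hs⟩ := lift_of_mem hs
    have hfs : ∀ x ∈ P, f x = s * x * s⁻¹ := by
      intro x hx
      have hxN := hPN hx
      refine lift_inj hinj (hPN (hf.mem hx)) (Subgroup.mul_mem _ (Subgroup.mul_mem _ hs hxN) (Subgroup.inv_mem _ hs)) ?_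
      rw [h1 x hx, lift_conj hs hxN, hls]
    obtain ⟨t, ht, hts⟩ := exists_tv hS hTS hPT hPEa hs (hf.1.congr hfs)
    refine ⟨lift ι t, (mem_im_iff' hTPN).2 ⟨t, ht, rfl⟩, lift ι (t⁻¹ * s), (mem_im_iff' hCN).2 ⟨_, hts, rfl⟩, ?_⟩
    rw [← lift_mul (hTPN ht) (hCN hts), mul_inv_cancel_left, hls]
  · -- good automorphisms come from `B`
    intro a ha
    have hai := ha.pp.1
    have haL := hL1 a hai ha.maps
    obtain ⟨-, -, g, hg⟩ := (fmap_realized_iff hL).1 haL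
    obtain ⟨-, n, hpn, hfix⟩ := ha.pp
    have hgit := lift_iter (ι := ι) hai hg
    have hgn : g ^ n ∈ im ι (P ⊔ centralizerIn S P) := by
      apply hc
      rw [Subgroup.mem_centralizer_iff]
      intro y hy
      obtain ⟨x, hx, rfl⟩ := (mem_im_iff' hQN).1 hy
      have h1 := hgit n x hx
      rw [hfix x hx] at h1
      calc lift ι x * g ^ n = (g ^ n * lift ι x * (g ^ n)⁻¹) * g ^ n := by rw [← h1]
        _ = g ^ n * lift ι x := by group
    obtain ⟨k, hk⟩ : ∃ k, (g ^ n) ^ p ^ k = 1 := by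
      obtain ⟨k, hk⟩ := S₀.2 ⟨g ^ n, himle hgn⟩
      exact ⟨k, congrArg Subtype.val hk⟩
    have hcop : (p ^ k).Coprime n := Nat.Coprime.pow_left k ((Fact.out : p.Prime).coprime_iff_not_dvd.2 hpn)
    obtain ⟨m, hm0, hm1⟩ := Nat.chineseRemainder hcop 0 1
    have hm0' : p ^ k ∣ m := (Nat.modEq_zero_iff_dvd).1 hm0
    have hn0 : n ≠ 0 := fun h => hpn (h ▸ dvd_zero p)
    have hord : (g ^ m) ^ n = 1 := by
      obtain ⟨c, rfl⟩ := hm0'
      calc (g ^ (p ^ k * c)) ^ n = ((g ^ n) ^ p ^ k) ^ c := by rw [← pow_mul, ← pow_mul, ← pow_mul]; ring_nf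
        _ = 1 := by rw [hk, one_pow]
    have hpo : ¬ p ∣ orderOf (g ^ m) := fun hd => hpn (hd.trans (orderOf_dvd_of_pow_eq_one hord))
    have hact : ∀ x ∈ P ⊔ centralizerIn S P, lift ι (a x) = g ^ m * lift ι x * (g ^ m)⁻¹ := by
      intro x hx
      rw [← hgit m x hx]
      congr 1
      -- a^[m] x = a x
      have h3 : ∀ j : ℕ, a^[n * j] x = x := fun j => iter_fix_mul (hfix x hx) j
      rcases Nat.lt_or_ge m 1 with h4 | h4
      · have hm00 : m = 0 := by omega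
        have h5 : n = 1 := by
          rw [hm00] at hm1
          have := (Nat.modEq_iff_dvd' (by omega : 0 ≤ 1)).1 hm1
          simpa using this
        have h6 := hfix x hx
        rw [h5] at h6
        rw [hm00]
        exact h6
      · have h5 : n ∣ m - 1 := (Nat.modEq_iff_dvd' h4).1 hm1.symm
        obtain ⟨q, hq⟩ := h5
        have h6 : m = n * q + 1 := by omega
        rw [h6, Function.iterate_succ_apply']
        rw [h3]
    refine ⟨g ^ m, Subgroup.subset_closure ⟨⟨⟨a, ⟨ha.fmap, (fiso_restrict ha.pp.map hPQ ha.maps).2⟩, fun x hx => hact x (hPQ hx)⟩, ?_⟩, hpo⟩, hpo, hact⟩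
    intro v hv
    obtain ⟨v, hv', rfl⟩ := (mem_im_iff' hCN).1 hv
    rw [← hact v (hCQ hv'), ← lift_inv (hCN hv'), ← lift_mul (Subgroup.inv_mem _ (hCN hv')) (hQN (hai.mem (hCQ hv')))]
    exact (mem_im_iff' hPN).2 ⟨_, ha.mod v hv', rfl⟩
  · -- elements of `B` give good automorphisms
    intro g hg hpo
    obtain ⟨a, haL, ha1, ha2, ha3⟩ := hmapQ g
    have haF : FMap F (P ⊔ centralizerIn S P) a := sub_fmap hLF haL
    have hai : FIso F (P ⊔ centralizerIn S P) (P ⊔ centralizerIn S P) a := haF.fiso_of_card hQS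
      (map_sup_mem haF (fun x hx => hPQ (ha2 x hx)) (fun x hx => hCQ (ha3 x hx))) le_rfl
    obtain ⟨⟨f, hf, hf1⟩, hmod⟩ := hBM hg
    refine ⟨a, ⟨?_, ⟨hai, orderOf g, hpo, fun x hx => ?_⟩, ha2, fun c hc => ?_⟩, ha1⟩
    · refine hf.1.congr fun x hx => lift_inj hinj (hPN (hf.mem hx)) (hPN (ha2 x hx)) ?_
      rw [hf1 x hx, ha1 x (hPQ hx)]
    · have h1 := lift_iter (ι := ι) hai ha1 (orderOf g) x hx
      rw [pow_orderOf_eq_one, one_mul, inv_one, mul_one] at h1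
      exact lift_inj hinj (hQN (iter_mem hai hx _)) (hQN hx) h1
    · have h1 := hmod (lift ι c) ((mem_im_iff' hCN).2 ⟨c, hc, rfl⟩)
      rw [← ha1 c (hCQ hc), ← lift_inv (hCN hc), ← lift_mul (Subgroup.inv_mem _ (hCN hc)) (hQN (hai.mem (hCQ hc)))] at h1
      exact (lift_mem_im_iff hinj hPN (Subgroup.mul_mem _ (Subgroup.inv_mem _ (hCN hc)) (hQN (hai.mem (hCQ hc))))).1 h1


/-- products of elements of `B` and of the image of `N_T(M)` -/
def BV {G : Type u} [Group G] (ι : ↥(normalizerIn S M) →* G) (B : Subgroup G) (T : Subgroup Ω) (g : G) : Prop :=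
  ∃ b ∈ B, ∃ t ∈ normalizerIn T M, g = b * lift ι t

section bv

variable {G : Type u} [Group G] {ι : ↥(normalizerIn S M) →* G} {B : Subgroup G}

theorem nT_le (hT : T ≤ S) : normalizerIn T M ≤ normalizerIn S M := fun _ hx => ⟨hT hx.1, hx.2⟩

theorem BV.of_B {b : G} (hb : b ∈ B) : BV ι B T b := ⟨b, hb, 1, Subgroup.one_mem _, by rw [lift_one, mul_one]⟩

theorem BV.of_T {t : Ω} (ht : t ∈ normalizerIn T M) : BV ι B T (lift ι t) := ⟨1, B.one_mem, t, ht, by rw [one_mul]⟩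

theorem BV.mul (hn : B.Normal) (hT : T ≤ S) {g h : G} (hg : BV ι B T g) (hh : BV ι B T h) : BV ι B T (g * h) := by
  obtain ⟨b, hb, t, ht, rfl⟩ := hg
  obtain ⟨b', hb', t', ht', rfl⟩ := hh
  refine ⟨b * (lift ι t * b' * (lift ι t)⁻¹), B.mul_mem hb (hn.conj_mem _ hb' _), t * t', Subgroup.mul_mem _ ht ht', ?_⟩
  rw [lift_mul (nT_le hT ht) (nT_le hT ht')]
  group

theorem BV.inv (hn : B.Normal) (hT : T ≤ S) {g : G} (hg : BV ι B T g) : BV ι B T g⁻¹ := by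
  obtain ⟨b, hb, t, ht, rfl⟩ := hg
  refine ⟨(lift ι t)⁻¹ * b⁻¹ * (lift ι t)⁻¹⁻¹, hn.conj_mem _ (B.inv_mem hb) _, t⁻¹, Subgroup.inv_mem _ ht, ?_⟩
  rw [lift_inv (nT_le hT ht)]
  group

theorem BV.conj (hn : B.Normal) (hT : F.StronglyClosed T) {g : G} (hg : BV ι B T g) {x : Ω} (hx : x ∈ normalizerIn S M) :
    BV ι B T (lift ι x * g * (lift ι x)⁻¹) := by
  obtain ⟨b, hb, t, ht, rfl⟩ := hg
  have h1 : x * t * x⁻¹ ∈ normalizerIn T M :=
    ⟨(Subgroup.mem_normalizer_iff.1 (normalizes_of_stronglyClosed hT hx.1) t).1 ht.1,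
      Subgroup.mul_mem _ (Subgroup.mul_mem _ hx.2 ht.2) (Subgroup.inv_mem _ hx.2)⟩
  refine ⟨lift ι x * b * (lift ι x)⁻¹, hn.conj_mem _ hb _, x * t * x⁻¹, h1, ?_⟩
  rw [lift_conj hx (nT_le hT.1 ht)]
  group

end bv

/-- The properties of the local group at `M`. -/
structure Loc (F : FusionSystem S) (E : FusionSystem T) (p : ℕ) (M : Subgroup Ω) {G : Type u} [Group G]
    (ι : ↥(normalizerIn S M) →* G) (B : Subgroup G) : Prop where
  tc : TC F T M
  inj : Function.Injective ι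
  Bn : B.Normal
  syl : ∃ S₀ : Sylow p G, (S₀ : Subgroup G) = ι.range
  inf : ∀ x ∈ normalizerIn S M, lift ι x ∈ B → x ∈ T
  Mn : ∀ g : G, ∀ x ∈ M, g * lift ι x * g⁻¹ ∈ im ι M
  cen : ∀ g : G, BV ι B T g → (∀ x ∈ M, g * lift ι x * g⁻¹ = lift ι x) → g ∈ im ι M
  ao : ∀ Q : Subgroup Ω, M ≤ Q → Q ≤ normalizerIn S M → ∀ b ∈ B, ¬ p ∣ orderOf b →
    (∀ x ∈ Q, b * lift ι x * b⁻¹ ∈ im ι Q) → ∃ a, AO F E p Q a ∧ ∀ x ∈ Q, lift ι (a x) = b * lift ι x * b⁻¹
  l1 : ∀ l : Ω → Ω, FIso E M M l → ∃ g, BV ι B T g ∧ ∀ x ∈ M, lift ι (l x) = g * lift ι x * g⁻¹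
  l4 : ∀ (Q : Subgroup Ω) (a : Ω → Ω), AO F E p Q a → Q ⊓ T = M → ∃ g, BV ι B T g ∧ ∀ x ∈ Q,
    lift ι (a x) = g * lift ι x * g⁻¹

theorem normal_inf (c : Cx F E p) (hQ : Q ≤ S) : Q ≤ normalizerIn S (Q ⊓ T) := by
  intro q hq
  refine ⟨hQ hq, Subgroup.mem_normalizer_iff.2 fun x => ⟨fun hx => ?_, fun hx => ?_⟩⟩
  · exact ⟨Q.mul_mem (Q.mul_mem hq hx.1) (Q.inv_mem hq), c.norm (hQ hq) hx.2⟩
  · have e : x = q⁻¹ * (q * x * q⁻¹) * q := by group
    rw [e]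
    exact ⟨Q.mul_mem (Q.mul_mem (Q.inv_mem hq) hx.1) hq, c.norm' (hQ hq) hx.2⟩

/-- a `p`-subgroup normalized by `H` and contained in `H` lies in every subgroup of `H` of index prime to `p` -/
theorem le_of_normal_pgroup {G : Type*} [Group G] [Finite G] [Fact p.Prime] {H K V : Subgroup G} (hKH : K ≤ H)
    (hVH : V ≤ H) (hn : ∀ h ∈ H, ∀ k ∈ K, h * k * h⁻¹ ∈ K) (hK : IsPGroup p K) (hV : IsPGroup p V)
    (hi : ¬ p ∣ V.relIndex H) : K ≤ V := by
  have hV' : IsPGroup p (V.subgroupOf H) := hV.comap_of_injective H.subtype H.subtype_injective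
  have hK' : IsPGroup p (K.subgroupOf H) := hK.comap_of_injective H.subtype H.subtype_injective
  let P : Sylow p H := hV'.toSylow hi
  have hPe : (P : Subgroup H) = V.subgroupOf H := rfl
  have hnK : (K.subgroupOf H).Normal := ⟨fun k hk h => hn h h.2 k hk⟩
  have h1 := (le_pCore hnK hK').trans (pCore_le_sylow P)
  intro k hk
  have h2 : (⟨k, hKH hk⟩ : H) ∈ K.subgroupOf H := hk
  exact h1 h2

/-- the automorphism `α` of `Q` is induced by `g` -/
def Rl {G : Type*} [Group G] {U : Subgroup Ω} (ι : ↥U →* G) (Q : Subgroup Ω) (α : MulAut Q) (g : G) : Prop :=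
  ∀ x ∈ Q, lift ι (autFun α x) = g * lift ι x * g⁻¹

section rl

variable {G : Type*} [Group G] {V : Subgroup Ω} {ι : ↥V →* G} {α β : MulAut Q} {g h : G}

theorem Rl.mul (h1 : Rl ι Q α g) (h2 : Rl ι Q β h) : Rl ι Q (α * β) (g * h) := by
  intro x hx
  rw [autFun_mul α β hx, h1 _ (autFun_mem β hx), h2 x hx]
  group

theorem Rl.inv (h1 : Rl ι Q α g) : Rl ι Q α⁻¹ g⁻¹ := by
  intro x hx
  have h2 := h1 _ (autFun_mem α⁻¹ hx)
  rw [autFun_apply_inv α hx] at h2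
  rw [h2]; group

theorem Rl.one : Rl ι Q 1 1 := fun x hx => by rw [autFun_one hx]; group

end rl

/-- the local group at a fully normalized `T`-centric subgroup -/
theorem exists_loc_fn [Finite S] [Fact p.Prime] (c : Cx F E p) (hTC : TC F T M) (hM : F.IsFullyNormalized M) :
    ∃ (G : Type u) (_ : Group G) (_ : Finite G) (ι : ↥(normalizerIn S M) →* G) (B : Subgroup G), Loc F E p M ι B := by
  obtain ⟨G, i1, i2, ι, L, S₀, B, hL, hLF, hS₀, hc, hs, hg1, hg2⟩ := exists_grp2 c.hS c.hF c.hEs c.hE hTC hM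
  have hinj := hL.1
  have hMS : M ≤ S := hM.1
  have hMT : M ≤ T := hTC.1
  have hTN : normalizerIn T M ≤ normalizerIn S M := nT_le c.TS
  have hMN : M ≤ normalizerIn S M := le_normalizerIn hMS
  have hMNT : M ≤ normalizerIn T M := le_normalizerIn hMT
  have hCN : centralizerIn S M ≤ normalizerIn S M := centralizerIn_le_normalizerIn S M
  have hTf : Finite T := finite_of_le c.TS
  have hn : B.Normal := hs.Bn
  have hMn : ∀ g : G, ∀ x ∈ M, g * lift ι x * g⁻¹ ∈ im ι M := fun g x hx =>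
    hs.Pn.conj_mem _ ((mem_im_iff' hMN).2 ⟨x, hx, rfl⟩) g
  have hinf : ∀ x ∈ normalizerIn S M, lift ι x ∈ B → x ∈ T := by
    intro x hx hxB
    have h1 : lift ι x ∈ (S₀ : Subgroup G) := by rw [hS₀, lift_of_mem hx]; exact ⟨_, rfl⟩
    exact ((lift_mem_im_iff hinj hTN hx).1 (hs.inf_le ⟨hxB, h1⟩)).1
  have hcen : ∀ g : G, BV ι B T g → (∀ x ∈ M, g * lift ι x * g⁻¹ = lift ι x) → g ∈ im ι M := by
    -- the centralizer of `M` in `BV`
    let V : Subgroup G := im ι (normalizerIn T M)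
    have hVp : IsPGroup p V := S₀.2.to_le hs.TS
    let H : Subgroup G := B ⊔ V
    have hi : ¬ p ∣ V.relIndex H := H34Cfp.not_dvd_sup S₀ hs.inf_le
    have mem_H : ∀ {x : G}, x ∈ H ↔ ∃ b ∈ B, ∃ v ∈ V, b * v = x := by
      intro x
      constructor
      · intro hx
        rw [← SetLike.mem_coe, Subgroup.normal_mul] at hx
        obtain ⟨b, hb, v, hv, h⟩ := Set.mem_mul.1 hx
        exact ⟨b, hb, v, hv, h⟩
      · rintro ⟨b, hb, v, hv, rfl⟩
        exact Subgroup.mul_mem _ (Subgroup.mem_sup_left hb) (Subgroup.mem_sup_right hv)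
    let K : Subgroup G := H ⊓ Subgroup.centralizer (im ι M : Set G)
    have hmodH : ∀ h ∈ H, ∀ v ∈ im ι (centralizerIn S M), v⁻¹ * (h * v * h⁻¹) ∈ im ι M := by
      intro h hh v hv
      obtain ⟨b, hb, y, hy, rfl⟩ := mem_H.1 hh
      obtain ⟨t, ht, rfl⟩ := (mem_im_iff' hTN).1 hy
      obtain ⟨d, hd, rfl⟩ := (mem_im_iff' hCN).1 hv
      have h1 : d⁻¹ * (t * d * t⁻¹) ∈ M := by
        refine hTC.cent c.hT ⟨?_, ?_⟩
        · have e : d⁻¹ * (t * d * t⁻¹) = (d⁻¹ * t * d) * t⁻¹ := by group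
          rw [e]; exact T.mul_mem (c.norm' hd.1 ht.1) (T.inv_mem ht.1)
        · refine Subgroup.mul_mem _ (Subgroup.inv_mem _ hd.2) (mem_centralizer_iff'.2 fun x hx => ?_)
          have h2 : t⁻¹ * x * t ∈ M := by
            have := (Subgroup.mem_normalizer_iff.1 (Subgroup.inv_mem _ ht.2) x).1 hx
            rwa [inv_inv] at this
          have h3 := mem_centralizer_iff'.1 hd.2 _ h2
          calc t * d * t⁻¹ * x * (t * d * t⁻¹)⁻¹ = t * (d * (t⁻¹ * x * t) * d⁻¹) * t⁻¹ := by group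
            _ = x := by rw [h3]; group
      have h4 : lift ι (t * d * t⁻¹) ∈ im ι (centralizerIn S M) := by
        refine (mem_im_iff' hCN).2 ⟨_, ?_, rfl⟩
        have e : t * d * t⁻¹ = d * (d⁻¹ * (t * d * t⁻¹)) := by group
        refine ⟨S.mul_mem (S.mul_mem (c.TS ht.1) hd.1) (S.inv_mem (c.TS ht.1)), mem_centralizer_iff'.2 fun x hx => ?_⟩
        have h2 : t⁻¹ * x * t ∈ M := by
          have := (Subgroup.mem_normalizer_iff.1 (Subgroup.inv_mem _ ht.2) x).1 hx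
          rwa [inv_inv] at this
        have h3 := mem_centralizer_iff'.1 hd.2 _ h2
        calc t * d * t⁻¹ * x * (t * d * t⁻¹)⁻¹ = t * (d * (t⁻¹ * x * t) * d⁻¹) * t⁻¹ := by group
          _ = x := by rw [h3]; group
      have h5 := hs.mod b hb _ h4
      have e : (lift ι d)⁻¹ * (b * lift ι t * lift ι d * (b * lift ι t)⁻¹) =
          ((lift ι d)⁻¹ * (lift ι (t * d * t⁻¹))) * ((lift ι (t * d * t⁻¹))⁻¹ * (b * lift ι (t * d * t⁻¹) * b⁻¹)) := by
        rw [lift_conj (hTN ht) (hCN hd)]; group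
      rw [e, ← lift_inv (hCN hd), ← lift_mul (Subgroup.inv_mem _ (hCN hd))
        (Subgroup.mul_mem _ (Subgroup.mul_mem _ (hTN ht) (hCN hd)) (Subgroup.inv_mem _ (hTN ht)))]
      exact Subgroup.mul_mem _ ((mem_im_iff' hMN).2 ⟨_, h1, rfl⟩) h5
    have hcomm : ∀ g ∈ K, ∀ m ∈ im ι M, g * m * g⁻¹ = m := fun g hg m hm => mem_centralizer_iff'.1 hg.2 m hm
    have hMp : IsPGroup p (im ι M) := S₀.2.to_le (fun y hy => by
      obtain ⟨x, -, rfl⟩ := hy
      rw [hS₀]; exact ⟨x, rfl⟩)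
    have hKp : IsPGroup p K := by
      intro g
      obtain ⟨k, hk⟩ := hMp.exists_card_eq
      have hexp : ∀ x ∈ im ι M, x ^ p ^ k = 1 := by
        intro x hx
        have h1 : (⟨x, hx⟩ : im ι M) ^ Nat.card (im ι M) = 1 := pow_card_eq_one'
        rw [hk] at h1
        exact congrArg Subtype.val h1
      have h2 : ∀ v ∈ im ι (centralizerIn S M), ∀ n : ℕ, (g : G) ^ n * v * ((g : G) ^ n)⁻¹ =
          v * (v⁻¹ * ((g : G) * v * (g : G)⁻¹)) ^ n := by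
        intro v hv n
        have hz := hmodH g g.2.1 v hv
        induction n with
        | zero => simp
        | succ n ih =>
          have h3 := hcomm g g.2 _ (Subgroup.pow_mem _ hz n)
          calc (g : G) ^ (n + 1) * v * ((g : G) ^ (n + 1))⁻¹ = (g : G) * ((g : G) ^ n * v * ((g : G) ^ n)⁻¹) * (g : G)⁻¹ := by
                rw [pow_succ']; group
            _ = ((g : G) * v * (g : G)⁻¹) * ((g : G) * (v⁻¹ * ((g : G) * v * (g : G)⁻¹)) ^ n * (g : G)⁻¹) := by rw [ih]; group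
            _ = ((g : G) * v * (g : G)⁻¹) * (v⁻¹ * ((g : G) * v * (g : G)⁻¹)) ^ n := by rw [h3]
            _ = v * (v⁻¹ * ((g : G) * v * (g : G)⁻¹)) ^ (n + 1) := by
              have e : (g : G) * v * (g : G)⁻¹ = v * (v⁻¹ * ((g : G) * v * (g : G)⁻¹)) := by group
              generalize v⁻¹ * ((g : G) * v * (g : G)⁻¹) = z at e ⊢
              rw [e, pow_succ', mul_assoc]
      have h4 : (g : G) ^ p ^ k ∈ im ι (M ⊔ centralizerIn S M) := by
        apply hc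
        rw [Subgroup.mem_centralizer_iff]
        have h5 : im ι (M ⊔ centralizerIn S M) ≤ Subgroup.centralizer {(g : G) ^ p ^ k} := by
          rintro _ ⟨x, hx, rfl⟩
          have hx' : (x : Ω) ∈ M ⊔ centralizerIn S M := hx
          obtain ⟨m, hm, d, hd, hmd⟩ := mem_sup_centralizerIn.1 hx'
          rw [Subgroup.mem_centralizer_singleton_iff]
          have e1 : ι x = lift ι m * lift ι d := by
            rw [← lift_mul (hMN hm) (hCN hd), hmd, lift_coe]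
          have h6 := h2 (lift ι d) ((mem_im_iff' hCN).2 ⟨d, hd, rfl⟩) (p ^ k)
          rw [hexp _ (hmodH g g.2.1 _ ((mem_im_iff' hCN).2 ⟨d, hd, rfl⟩)), mul_one] at h6
          have h7 := hcomm _ (Subgroup.pow_mem _ g.2 (p ^ k)) (lift ι m) ((mem_im_iff' hMN).2 ⟨m, hm, rfl⟩)
          rw [e1]
          symm
          calc (g : G) ^ p ^ k * (lift ι m * lift ι d) = ((g : G) ^ p ^ k * lift ι m * ((g : G) ^ p ^ k)⁻¹) *
                ((g : G) ^ p ^ k * lift ι d * ((g : G) ^ p ^ k)⁻¹) * (g : G) ^ p ^ k := by group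
            _ = lift ι m * lift ι d * (g : G) ^ p ^ k := by rw [h6, h7]
        intro y hy
        exact Subgroup.mem_centralizer_singleton_iff.1 (h5 hy)
      have h8 : (g : G) ^ p ^ k ∈ (S₀ : Subgroup G) := by
        obtain ⟨x, -, hx⟩ := h4
        rw [← hx, hS₀]; exact ⟨x, rfl⟩
      obtain ⟨l, hl⟩ := S₀.2 ⟨_, h8⟩
      refine ⟨k + l, Subtype.ext ?_⟩
      have h9 := congrArg Subtype.val hl
      push_cast at h9 ⊢
      rw [pow_add, pow_mul]
      exact h9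
    have hle := le_of_normal_pgroup (H := H) (K := K) (V := V) inf_le_left le_sup_right (fun h hh k hk =>
      ⟨Subgroup.mul_mem _ (Subgroup.mul_mem _ hh hk.1) (Subgroup.inv_mem _ hh), mem_centralizer_iff'.2 fun m hm => by
        have h1 : h⁻¹ * m * h⁻¹⁻¹ ∈ im ι M := hs.Pn.conj_mem m hm h⁻¹
        have h2 := hcomm k hk _ h1
        calc h * k * h⁻¹ * m * (h * k * h⁻¹)⁻¹ = h * (k * (h⁻¹ * m * h⁻¹⁻¹) * k⁻¹) * h⁻¹ := by group
          _ = m := by rw [h2]; group⟩) hKp hVp hi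
    intro g hg hgM
    have hgK : g ∈ K := by
      obtain ⟨b, hb, t, ht, rfl⟩ := hg
      refine ⟨mem_H.2 ⟨b, hb, _, (mem_im_iff' hTN).2 ⟨t, ht, rfl⟩, rfl⟩, mem_centralizer_iff'.2 fun m hm => ?_⟩
      obtain ⟨x, hx, rfl⟩ := (mem_im_iff' hMN).1 hm
      exact hgM x hx
    obtain ⟨t, ht, rfl⟩ := (mem_im_iff' hTN).1 (hle hgK)
    refine (mem_im_iff' hMN).2 ⟨t, hTC.cent c.hT ⟨ht.1, mem_centralizer_iff'.2 fun x hx => ?_⟩, rfl⟩
    have h1 := hgM x hx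
    rw [← lift_conj (hTN ht) (hMN hx)] at h1
    exact lift_inj hinj (Subgroup.mul_mem _ (Subgroup.mul_mem _ (hTN ht) (hMN hx)) (Subgroup.inv_mem _ (hTN ht))) (hMN hx) h1
  have hao : ∀ Q : Subgroup Ω, M ≤ Q → Q ≤ normalizerIn S M → ∀ b ∈ B, ¬ p ∣ orderOf b →
      (∀ x ∈ Q, b * lift ι x * b⁻¹ ∈ im ι Q) → ∃ a, AO F E p Q a ∧ ∀ x ∈ Q, lift ι (a x) = b * lift ι x * b⁻¹ := by
    intro Q hMQ hQN b hb hpo hbQ
    have hQS := hQN.trans (normalizerIn_le S M)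
    obtain ⟨a, haL, ha⟩ := exists_fmap_of_conj hL hQN b (fun x hx => by
      obtain ⟨y, -, hy⟩ := hbQ x hx
      rw [← hy]; exact ⟨y, rfl⟩)
    have haF : FMap F Q a := sub_fmap hLF haL
    have haN : ∀ x ∈ Q, a x ∈ normalizerIn S M := fun x hx => haL.map_mem hx
    have haQ : ∀ x ∈ Q, a x ∈ Q := fun x hx => (lift_mem_im_iff hinj hQN (haN x hx)).1 (by rw [ha x hx]; exact hbQ x hx)
    have hai : FIso F Q Q a := haF.fiso_of_card hQS haQ le_rfl
    have hpp : PP F p Q a := by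
      refine ⟨hai, orderOf b, hpo, fun x hx => ?_⟩
      have h1 := lift_iter (ι := ι) hai ha (orderOf b) x hx
      rw [pow_orderOf_eq_one, one_mul, inv_one, mul_one] at h1
      exact lift_inj hinj (hQN (iter_mem hai hx _)) (hQN hx) h1
    have hMQT : M ≤ Q ⊓ T := le_inf hMQ hMT
    have haM : ∀ x ∈ M, a x ∈ M := fun x hx => by
      have h1 := hMn b x hx
      rw [← ha x (hMQ hx)] at h1
      exact (lift_mem_im_iff hinj hMN (haN x (hMQ hx))).1 h1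
    have haE : FMap E M a := by
      obtain ⟨a', ha', h1⟩ := hg2 b hb hpo
      refine ha'.fmap.congr fun x hx => lift_inj hinj (hMN (ha'.maps x hx)) (haN x (hMQ hx)) ?_
      rw [h1 x ((le_sup_left : M ≤ M ⊔ centralizerIn S M) hx), ha x (hMQ hx)]
    refine ⟨a, ⟨hpp, hTC.mono c.hT hMQT inf_le_right, fun x hx => ?_, ?_⟩, ha⟩
    · refine hinf _ (Subgroup.mul_mem _ (Subgroup.inv_mem _ (hQN hx)) (haN x hx)) ?_
      rw [lift_mul (Subgroup.inv_mem _ (hQN hx)) (haN x hx), lift_inv (hQN hx), ha x hx]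
      have e : (lift ι x)⁻¹ * (b * lift ι x * b⁻¹) = ((lift ι x)⁻¹ * b * (lift ι x)⁻¹⁻¹) * b⁻¹ := by group
      rw [e]
      exact B.mul_mem (hn.conj_mem _ hb _) (B.inv_mem hb)
    · exact pp_E c.hS c.hF c.hEs c.hE hTC hM hMQT (fun x hx => ⟨hx.2, (hQN hx.1).2⟩)
        (hpp.restrict inf_le_left (fun x hx => (fiso_inf c.hT hai).mem hx)) haE haM
  have hMEn := fullyNormalized_sub c.hS c.hF c.hT c.hE.sub hMT hM
  have hMEa := fullyAutomized_of_fullyNormalized c.hTp c.hEs hMEn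
  have hl1 : ∀ l : Ω → Ω, FIso E M M l → ∃ g, BV ι B T g ∧ ∀ x ∈ M, lift ι (l x) = g * lift ι x * g⁻¹ := by
    refine fiso_induction hMEa _ ?_ ?_ ?_ ?_ ?_
    · rintro f g ⟨k, h1, h2⟩ h3
      exact ⟨k, h1, fun x hx => by rw [← h3 x hx]; exact h2 x hx⟩
    · intro t ht
      exact ⟨lift ι t, BV.of_T ht, fun x hx => lift_conj (hTN ht) (hMN hx)⟩
    · rintro f g hf hg ⟨k, h1, h2⟩ ⟨l, h3, h4⟩
      refine ⟨l * k, h3.mul hn c.TS h1, fun x hx => ?_⟩
      show lift ι (g (f x)) = _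
      rw [h4 _ (hf.mem hx), h2 x hx]; group
    · rintro f g hf hg ⟨k, h1, h2⟩ h3 h4
      refine ⟨k⁻¹, h1.inv hn c.TS, fun x hx => ?_⟩
      have h5 := h2 _ (hg.mem hx)
      rw [h4 x hx] at h5
      rw [h5]; group
    · intro f hf
      obtain ⟨a, ha, h1⟩ := exists_good c.hS c.hF c.hEs c.hE c.hx hTC (pp_sub c.hE.sub hf) hf.map
      obtain ⟨b, hb, -, h2⟩ := hg1 a ha
      exact ⟨b, BV.of_B hb, fun x hx => by rw [← h1 x hx]; exact h2 x ((le_sup_left : M ≤ M ⊔ centralizerIn S M) hx)⟩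
  have hkey : ∀ (Q : Subgroup Ω) (a : Ω → Ω), AO F E p Q a → Q ⊓ T = M → ∃ b ∈ B, ∃ a₄, AO F E p Q a₄ ∧
      (∀ x ∈ Q, lift ι (a₄ x) = b * lift ι x * b⁻¹) ∧ ∀ x ∈ M, a₄ x = a x := by
    intro Q a ha hQM
    have hQS := ha.pp.le
    have hQN : Q ≤ normalizerIn S M := hQM ▸ normal_inf c hQS
    have hMQ : M ≤ Q := hQM ▸ inf_le_left
    have haMi : FIso F M M a := by
      have := fiso_inf c.hT ha.pp.1
      rwa [hQM] at this
    have haE : FMap E M a := hQM ▸ ha.inE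
    obtain ⟨a', ha', h1⟩ := exists_good c.hS c.hF c.hEs c.hE c.hx hTC
      (ha.pp.restrict hMQ (fun x hx => haMi.mem hx)) haE
    obtain ⟨b, hb, hpo, h2⟩ := hg1 a' ha'
    have h3 : ∀ x ∈ M, lift ι (a x) = b * lift ι x * b⁻¹ := fun x hx => by
      rw [← h1 x hx]; exact h2 x ((le_sup_left : M ≤ M ⊔ centralizerIn S M) hx)
    have h4 : ∀ x ∈ Q, b * lift ι x * b⁻¹ ∈ im ι Q := by
      intro x hx
      have hxN := hQN hx
      have haxN := hQN (ha.pp.mem hx)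
      have h5 : BV ι B T ((b * lift ι x * b⁻¹) * (lift ι (a x))⁻¹) := by
        refine ⟨b * (lift ι x * b⁻¹ * (lift ι x)⁻¹), B.mul_mem hb (hn.conj_mem _ (B.inv_mem hb) _), x * (a x)⁻¹, ?_, ?_⟩
        · refine ⟨?_, Subgroup.mul_mem _ hxN.2 (Subgroup.inv_mem _ haxN.2)⟩
          have e : x * (a x)⁻¹ = x * (x⁻¹ * a x)⁻¹ * x⁻¹ := by group
          rw [e]; exact c.norm (hQS hx) (T.inv_mem (ha.mod x hx))
        · rw [lift_mul hxN (Subgroup.inv_mem _ haxN), lift_inv haxN]; group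
      have h6 : (b * lift ι x * b⁻¹) * (lift ι (a x))⁻¹ ∈ im ι M := by
        refine hcen _ h5 fun m hm => ?_
        have hm1 : (a x)⁻¹ * m * a x ∈ M := by
          have := (Subgroup.mem_normalizer_iff.1 (Subgroup.inv_mem _ haxN.2) m).1 hm
          rwa [inv_inv] at this
        obtain ⟨m₂, hm₂, h7⟩ := haMi.mem_iff.1 hm1
        have h8 : x * m₂ * x⁻¹ ∈ M := (Subgroup.mem_normalizer_iff.1 hxN.2 m₂).1 hm₂
        have h9 : a (x * m₂ * x⁻¹) = m := by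
          rw [ha.pp.map.map_conj hx (hMQ hm₂), h7]; group
        have e1 : (lift ι (a x))⁻¹ * lift ι m * lift ι (a x) = b * lift ι m₂ * b⁻¹ := by
          rw [← h3 m₂ hm₂, h7, lift_mul (Subgroup.mul_mem _ (Subgroup.inv_mem _ haxN) (hMN hm)) haxN,
            lift_mul (Subgroup.inv_mem _ haxN) (hMN hm), lift_inv haxN]
        calc b * lift ι x * b⁻¹ * (lift ι (a x))⁻¹ * lift ι m * (b * lift ι x * b⁻¹ * (lift ι (a x))⁻¹)⁻¹ =
              b * lift ι x * b⁻¹ * ((lift ι (a x))⁻¹ * lift ι m * lift ι (a x)) * (b * lift ι x * b⁻¹)⁻¹ := by group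
          _ = b * (lift ι x * lift ι m₂ * (lift ι x)⁻¹) * b⁻¹ := by rw [e1]; group
          _ = lift ι m := by rw [← lift_conj hxN (hMN hm₂), ← h3 _ h8, h9]
      obtain ⟨m, hm, hm'⟩ := (mem_im_iff' hMN).1 h6
      refine (mem_im_iff' hQN).2 ⟨m * a x, Q.mul_mem (hMQ hm) (ha.pp.mem hx), ?_⟩
      rw [lift_mul (hMN hm) haxN, hm']; group
    obtain ⟨a₄, ha₄, h5⟩ := hao Q hMQ hQN b hb hpo h4
    refine ⟨b, hb, a₄, ha₄, h5, fun x hx => lift_inj hinj (hQN (ha₄.pp.mem (hMQ hx))) (hQN (ha.pp.mem (hMQ hx))) ?_⟩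
    rw [h5 x (hMQ hx), h3 x hx]
  let N : FusionSystem (normalizerIn S M) := normSys F M hMS
  have hNsat : N.IsSaturated p := normSys_saturated c.hS c.hF hM
  have hNp : IsPGroup p (normalizerIn S M) := isPGroup_of_le c.hS (normalizerIn_le S M)
  have hNf : Finite (normalizerIn S M) := finite_of_le (normalizerIn_le S M)
  have hNsub : N.IsSubsystemOf F := normSys_sub
  have hT'c : N.StronglyClosed (normalizerIn T M) := (stronglyClosed_iff N).2 ⟨hTN, fun P f hP hf x hx =>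
    ⟨StronglyClosed.map_mem F c.hT (sub_fmap hNsub hf) hx (hP hx).1, (hf.map_mem hx).2⟩⟩
  have hNof : ∀ {Q : Subgroup Ω} {a : Ω → Ω}, M ≤ Q → Q ≤ normalizerIn S M → FIso F Q Q a → FIso F M M a → FIso N Q Q a := by
    intro Q a hMQ hQN ha haM
    have e : Q ⊔ M = Q := sup_eq_left.2 hMQ
    exact ⟨fmap_normSys.2 ⟨hQN, fun x hx => hQN (ha.mem hx), a, e.symm ▸ ha.1, fun _ _ => rfl, haM⟩, ha.2⟩
  have hfn : ∀ (Q : Subgroup Ω) (a : Ω → Ω), AO F E p Q a → Q ⊓ T = M → N.IsFullyNormalized Q →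
      ∃ b ∈ B, ∀ x ∈ Q, lift ι (a x) = b * lift ι x * b⁻¹ := by
    intro Q a ha hQM hQfn
    have hQS := ha.pp.le
    have hQN : Q ≤ normalizerIn S M := hQM ▸ normal_inf c hQS
    have hMQ : M ≤ Q := hQM ▸ inf_le_left
    obtain ⟨b, hb, a₄, ha₄, h1, h2⟩ := hkey Q a ha hQM
    have haMi : FIso F M M a := by
      have := fiso_inf c.hT ha.pp.1
      rwa [hQM] at this
    have ha₄Mi : FIso F M M a₄ := haMi.congr fun x hx => (h2 x hx).symm
    have hQa : N.IsFullyAutomized p Q := fullyAutomized_of_fullyNormalized hNp hNsat hQfn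
    have haN : FIso N Q Q a := hNof hMQ hQN ha.pp.1 haMi
    have ha₄N : FIso N Q Q a₄ := hNof hMQ hQN ha₄.pp.1 ha₄Mi
    have hax : ∀ x ∈ Q, autFun (haN.equiv : MulAut Q) x = a x := fun x hx => by rw [autFun_of_mem _ hx]; rfl
    have ha₄x : ∀ x ∈ Q, autFun (ha₄N.equiv : MulAut Q) x = a₄ x := fun x hx => by rw [autFun_of_mem _ hx]; rfl
    let 𝒩 : Subgroup (MulAut Q) :=
      { carrier := {α | ∃ b ∈ B, Rl ι Q α b}
        one_mem' := ⟨1, B.one_mem, Rl.one⟩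
        mul_mem' := by
          rintro α β ⟨g, hg, h1⟩ ⟨h, hh, h2⟩
          exact ⟨g * h, B.mul_mem hg hh, h1.mul h2⟩
        inv_mem' := by
          rintro α ⟨g, hg, h1⟩
          exact ⟨g⁻¹, B.inv_mem hg, h1.inv⟩ }
    set δ : MulAut Q := (ha₄N.equiv : MulAut Q)⁻¹ * (haN.equiv : MulAut Q) with hδ
    have hδM : ∀ x ∈ M, autFun δ x = x := fun x hx => by
      rw [hδ, autFun_mul _ _ (hMQ hx), hax x (hMQ hx), ← h2 x hx, ← ha₄x x (hMQ hx), autFun_inv_apply _ (hMQ hx)]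
    have hδT : ∀ x ∈ Q, x⁻¹ * autFun δ x ∈ T := fun x hx => by
      have h3 : a₄ (autFun δ x) = a x := by
        rw [hδ, autFun_mul _ _ hx, ← ha₄x _ (autFun_mem _ (autFun_mem _ hx)), autFun_apply_inv _ (autFun_mem _ hx), hax x hx]
      have h4 := ha₄.mod _ (autFun_mem δ hx)
      rw [h3] at h4
      have e : x⁻¹ * autFun δ x = (x⁻¹ * a x) * ((autFun δ x)⁻¹ * a x)⁻¹ := by group
      rw [e]
      exact T.mul_mem (ha.mod x hx) (T.inv_mem h4)
    have hδQM : ∀ x ∈ Q, x⁻¹ * autFun δ x ∈ M := fun x hx => by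
      rw [← hQM]; exact ⟨Q.mul_mem (Q.inv_mem hx) (autFun_mem _ hx), hδT x hx⟩
    have hδs : δ ∈ stabT N (normalizerIn T M) Q := by
      refine mem_stabT.2 ⟨Subgroup.mul_mem _ (Subgroup.inv_mem _ ha₄N.equiv_mem_autGroup) haN.equiv_mem_autGroup,
        fun x hx hxT => hδM x ?_, fun x hx => ⟨hδT x hx, (hQN (Q.mul_mem (Q.inv_mem hx) (autFun_mem _ hx))).2⟩⟩
      rw [← hQM]; exact ⟨hx, hxT.1⟩
    obtain ⟨s, hs, hs'⟩ := exists_stabS hNp hT'c hQa hδs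
    have hsN : s ∈ normalizerIn S M := (mem_stabS.1 hs).1.1
    have hRδ : Rl ι Q δ (lift ι s) := fun x hx => by rw [hs' x hx, lift_conj hsN (hQN hx)]
    have hR4 : Rl ι Q (ha₄N.equiv : MulAut Q) b := fun x hx => by rw [ha₄x x hx, h1 x hx]
    have hxe : (haN.equiv : MulAut Q) = (ha₄N.equiv : MulAut Q) * δ := by rw [hδ, mul_inv_cancel_left]
    have hRx : Rl ι Q (haN.equiv : MulAut Q) (b * lift ι s) := by rw [hxe]; exact hR4.mul hRδ
    have hppN : PP N p Q a := ⟨haN, ha.pp.2⟩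
    have hmem : (haN.equiv : MulAut Q) ∈ 𝒩 := by
      refine FusionLemD.mem_of_pprime (p := p) (N := 𝒩) (y := (ha₄N.equiv : MulAut Q)) (δ := δ) ?_ ⟨b, hb, hR4⟩ hxe hppN.order
        (FusionLemD.stab_pow c.hS hQS hMQ hδM hδQM)
      rintro n ⟨g, hg, h3⟩
      exact ⟨_, hn.conj_mem g hg (b * lift ι s), (hRx.mul h3).mul hRx.inv⟩
    obtain ⟨g, hg, h3⟩ := hmem
    exact ⟨g, hg, fun x hx => by rw [← hax x hx]; exact h3 x hx⟩
  have hl4 : ∀ (Q : Subgroup Ω) (a : Ω → Ω), AO F E p Q a → Q ⊓ T = M → ∃ g, BV ι B T g ∧ ∀ x ∈ Q,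
      lift ι (a x) = g * lift ι x * g⁻¹ := by
    intro Q a ha hQM
    have hQS := ha.pp.le
    have hQN : Q ≤ normalizerIn S M := hQM ▸ normal_inf c hQS
    have hMQ : M ≤ Q := hQM ▸ inf_le_left
    obtain ⟨b, hb, a₄, ha₄, h1, h2⟩ := hkey Q a ha hQM
    obtain ⟨Q₂, χ, hQ₂, hχ, -, -⟩ := exists_fullyNormalized_map hNp hNsat hQN
    obtain ⟨χ', hχ', e1, e2⟩ := hχ.symm
    have hχF := sub_fiso hNsub hχ
    have hχ'F := sub_fiso hNsub hχ'
    have hχM : FIso F M M χ := by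
      obtain ⟨-, -, k, hk, hk1, hk2⟩ := fmap_normSys.1 hχ.1
      exact hk2.congr fun x hx => hk1 x (hMQ hx)
    have hQ₂M : Q₂ ⊓ T = M := by
      have h3 := fiso_inf c.hT hχF
      rw [hQM] at h3
      ext y
      rw [h3.mem_iff, hχM.mem_iff]
    have hA := ha.transport c hχF hχ'F e1 e2
    have hA4 := ha₄.transport c hχF hχ'F e1 e2
    obtain ⟨g₂, hg₂, h3⟩ := hfn Q₂ _ hA hQ₂M hQ₂
    obtain ⟨g₄, hg₄, h4⟩ := hfn Q₂ _ hA4 hQ₂M hQ₂
    have hMQ₂ : M ≤ Q₂ := hQ₂M ▸ inf_le_left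
    have hQ₂N : Q₂ ≤ normalizerIn S M := hχ.le_right
    have h5 : g₄⁻¹ * g₂ ∈ im ι M := by
      refine hcen _ (BV.of_B (B.mul_mem (B.inv_mem hg₄) hg₂)) fun x hx => ?_
      have hx' : χ' x ∈ M := by
        obtain ⟨y, hy, rfl⟩ := hχM.mem_iff.1 hx
        rwa [e1 y (hMQ hy)]
      have h6 := h3 x (hMQ₂ hx)
      have h7 := h4 x (hMQ₂ hx)
      rw [h2 _ hx'] at h7
      have h8 : g₂ * lift ι x * g₂⁻¹ = g₄ * lift ι x * g₄⁻¹ := h6.symm.trans h7
      calc g₄⁻¹ * g₂ * lift ι x * (g₄⁻¹ * g₂)⁻¹ = g₄⁻¹ * (g₂ * lift ι x * g₂⁻¹) * g₄ := by group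
        _ = lift ι x := by rw [h8]; group
    obtain ⟨z, hz, hz'⟩ := (mem_im_iff' hMN).1 h5
    have hg : g₂ = g₄ * lift ι z := by rw [hz']; group
    obtain ⟨z₁, hz₁, hz₁z⟩ := hχM.mem_iff.1 hz
    refine ⟨b * lift ι z₁, (BV.of_B hb).mul hn c.TS (BV.of_T (hMNT hz₁)), fun x hx => ?_⟩
    have hzx : z₁ * x * z₁⁻¹ ∈ Q := Q.mul_mem (Q.mul_mem (hMQ hz₁) hx) (Q.inv_mem (hMQ hz₁))
    have h6 : a x = a₄ (z₁ * x * z₁⁻¹) := by
      refine hχF.1.inj (ha.pp.mem hx) (ha₄.pp.mem hzx) (lift_inj hinj (hQ₂N (hχ.mem (ha.pp.mem hx)))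
        (hQ₂N (hχ.mem (ha₄.pp.mem hzx))) ?_)
      have h7 := h3 (χ x) (hχ.mem hx)
      have h8 := h4 (χ (z₁ * x * z₁⁻¹)) (hχ.mem hzx)
      rw [e1 x hx] at h7
      rw [e1 _ hzx] at h8
      rw [h7, h8, hg, hχF.1.map_conj (hMQ hz₁) hx, hz₁z, lift_conj (hMN hz) (hQ₂N (hχ.mem hx))]
      group
    rw [h6, h1 _ hzx, lift_conj (hMN hz₁) (hQN hx)]
    group
  exact ⟨G, i1, i2, ι, B, hTC, hinj, hn, ⟨S₀, hS₀⟩, hinf, hMn, hcen, hao, hl1, hl4⟩

end Cfsg.Agent.Lib.FusionES
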