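import Cfsg.Agent.Lib.FusionES2
import Cfsg.Agent.Lib.FusionPerp

/-!
Transport of the local groups; the maps realized by the local groups.
-/

set_option autoImplicit false
set_option linter.unusedSectionVars false

universe u

open Cfsg Cfsg.FusionSystem Cfsg.Agent.Lib.FusionBasic Cfsg.Agent.Lib.FusionSat Cfsg.Agent.Lib.FusionNormal
  Cfsg.Agent.Lib.FusionInvar Cfsg.Agent.Lib.FusionTools Cfsg.Agent.Lib.FusionPP Cfsg.Agent.Lib.FusionStrong
  Cfsg.Agent.Lib.FusionSys Cfsg.Agent.Lib.FusionFrat Cfsg.Agent.Lib.FusionPrime Cfsg.Agent.Lib.FusionTC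
  Cfsg.Agent.Lib.FusionClosed Cfsg.Agent.Lib.FusionStab Cfsg.Agent.Lib.FusionZeta
  Cfsg.Agent.Lib.FusionGroup Cfsg.Agent.Lib.FusionModel Cfsg.Agent.Lib.FusionRealized
  Cfsg.Agent.Lib.FusionNormSat Cfsg.Agent.Lib.H34Local Cfsg.Agent.Lib.H34CfpFus

namespace Cfsg.Agent.Lib.FusionES

variable {Ω : Type u} [Group Ω] {S T : Subgroup Ω} {F : FusionSystem S} {E : FusionSystem T}
  {P Q R U M M' X Y Z : Subgroup Ω} {a b f g ψ α : Ω → Ω} {p : ℕ}

/-- Local groups generated by `B` and the image of `N_S(M)`. -/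
structure LocT (F : FusionSystem S) (E : FusionSystem T) (p : ℕ) (M : Subgroup Ω) {G : Type u} [Group G]
    (ι : ↥(normalizerIn S M) →* G) (B : Subgroup G) : Prop where
  loc : Loc F E p M ι B
  top : ∀ g : G, ∃ b ∈ B, ∃ x ∈ normalizerIn S M, g = b * lift ι x

theorem exists_locT [Finite S] [Fact p.Prime] (c : Cx F E p) (hTC : TC F T M) (hM' : F.IsFullyNormalized M')
    (hα : FMap F (normalizerIn S M) α) (hαM : FIso F M M' α)
    (hαN : ∀ y ∈ normalizerIn T M', ∃ x ∈ normalizerIn T M, α x = y) :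
    ∃ (G : Type u) (_ : Group G) (_ : Finite G) (ι : ↥(normalizerIn S M) →* G) (B : Subgroup G), LocT F E p M ι B := by
  obtain ⟨G, i1, i2, ι', B', hL⟩ := exists_loc_fn c (hTC.conj c.hT hαM.isConj) hM'
  have hMS : M ≤ S := hαM.le_left
  have hMT : M ≤ T := hTC.1
  have hMN : M ≤ normalizerIn S M := le_normalizerIn hMS
  have hTN : normalizerIn T M ≤ normalizerIn S M := nT_le c.TS
  have hTN' : normalizerIn T M' ≤ normalizerIn S M' := nT_le c.TS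
  have hMN' : M' ≤ normalizerIn S M' := le_normalizerIn hM'.1
  have hαm : ∀ x ∈ normalizerIn S M, α x ∈ normalizerIn S M' := fun x hx =>
    ⟨hα.map_mem hx, hαM.map_normalizer hα hMN hx hx.2⟩
  have hαT : ∀ x ∈ normalizerIn T M, α x ∈ normalizerIn T M' := fun x hx =>
    ⟨StronglyClosed.map_mem F c.hT hα (hTN hx) hx.1, (hαm x (hTN hx)).2⟩
  let αX : ↥(normalizerIn S M) →* ↥(normalizerIn S M') :=
    { toFun := fun x => ⟨α x, hαm x x.2⟩
      map_one' := Subtype.ext hα.map_one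
      map_mul' := fun x y => Subtype.ext (hα.map_mul x.2 y.2) }
  let ι₀ : ↥(normalizerIn S M) →* G := ι'.comp αX
  have hι₀ : ∀ x (hx : x ∈ normalizerIn S M), ι₀ ⟨x, hx⟩ = lift ι' (α x) := fun x hx => (lift_of_mem (hαm x hx)).symm
  obtain ⟨S₀, hS₀⟩ := hL.syl
  have hBn := hL.Bn
  let H : Subgroup G := B' ⊔ ι₀.range
  have hBH : B' ≤ H := le_sup_left
  have hιH : ∀ x, ι₀ x ∈ H := fun x => (le_sup_right : ι₀.range ≤ B' ⊔ ι₀.range) ⟨x, rfl⟩
  let ι : ↥(normalizerIn S M) →* ↥H := ι₀.codRestrict H hιH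
  let B : Subgroup ↥H := B'.subgroupOf H
  have hlift : ∀ x ∈ normalizerIn S M, ((lift ι x : ↥H) : G) = lift ι' (α x) := fun x hx => by
    rw [lift_of_mem hx]; exact hι₀ x hx
  have hBV : ∀ g : ↥H, BV ι B T g → BV ι' B' T (g : G) := by
    rintro g ⟨b, hb, t, ht, rfl⟩
    exact ⟨b, hb, α t, hαT t ht, by push_cast; rw [hlift t (hTN ht)]⟩
  have hBV' : ∀ g : ↥H, BV ι' B' T (g : G) → BV ι B T g := by
    rintro g ⟨b, hb, t', ht', hg⟩
    obtain ⟨t, ht, rfl⟩ := hαN t' ht'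
    exact ⟨⟨b, hBH hb⟩, hb, t, ht, Subtype.ext (by push_cast; rw [hg, hlift t (hTN ht)])⟩
  have him : ∀ {Q Q' : Subgroup Ω}, Q ≤ normalizerIn S M → FIso F Q Q' α → ∀ g : ↥H, g ∈ im ι Q ↔ (g : G) ∈ im ι' Q' := by
    intro Q Q' hQ hQQ' g
    have hQ' : Q' ≤ normalizerIn S M' := fun y hy => by
      obtain ⟨x, hx, rfl⟩ := hQQ'.mem_iff.1 hy
      exact hαm x (hQ hx)
    rw [mem_im_iff' hQ, mem_im_iff' hQ']
    constructor
    · rintro ⟨x, hx, rfl⟩
      exact ⟨α x, hQQ'.mem hx, (hlift x (hQ hx)).symm⟩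
    · rintro ⟨y, hy, hg⟩
      obtain ⟨x, hx, rfl⟩ := hQQ'.mem_iff.1 hy
      exact ⟨x, hx, Subtype.ext (by rw [hlift x (hQ hx), hg])⟩
  have hαi : ∀ {x y}, x ∈ normalizerIn S M → y ∈ normalizerIn S M → lift ι' (α x) = lift ι' (α y) → x = y :=
    fun hx hy h => hα.inj hx hy (lift_inj hL.inj (hαm _ hx) (hαm _ hy) h)
  refine ⟨↥H, inferInstance, inferInstance, ι, B, ⟨hTC, ?_, ?_, ?_, ?_, ?_, ?_, ?_, ?_, ?_⟩, ?_⟩
  · intro x y hxy
    have h1 : ι₀ x = ι₀ y := congrArg Subtype.val hxy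
    exact Subtype.ext (hαi x.2 y.2 (by rw [← hι₀ x x.2, ← hι₀ y y.2]; exact h1))
  · exact Subgroup.normal_subgroupOf
  · have h1 : B' ⊓ (S₀ : Subgroup G) ≤ ι₀.range := by
      rintro y ⟨hy1, hy2⟩
      rw [SetLike.mem_coe, hS₀] at hy2
      obtain ⟨x', rfl⟩ := hy2
      have h2 : (x' : Ω) ∈ T := hL.inf x' x'.2 (by rw [lift_coe]; exact hy1)
      obtain ⟨x, hx, h3⟩ := hαN x' ⟨h2, x'.2.2⟩
      refine ⟨⟨x, hTN hx⟩, ?_⟩
      rw [hι₀ x (hTN hx), h3, lift_coe]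
    have h2 := H34Cfp.not_dvd_sup S₀ h1
    have h3 : IsPGroup p ι.range := by
      rintro ⟨y, x, rfl⟩
      obtain ⟨k, hk⟩ := c.hS ⟨x, x.2.1⟩
      refine ⟨k, Subtype.ext ?_⟩
      have h4 : x ^ p ^ k = 1 := Subtype.ext (by simpa using congrArg Subtype.val hk)
      show (ι x) ^ p ^ k = 1
      rw [← map_pow, h4, map_one]
    have h5 : ι.range = ι₀.range.subgroupOf H := by
      ext y
      rw [Subgroup.mem_subgroupOf]
      constructor
      · rintro ⟨x, rfl⟩; exact ⟨x, rfl⟩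
      · rintro ⟨x, hx⟩; exact ⟨x, Subtype.ext hx⟩
    refine ⟨h3.toSylow (by rw [h5]; exact h2), rfl⟩
  · intro x hx hxB
    have h1 : lift ι' (α x) ∈ B' := by rw [← hlift x hx]; exact hxB
    exact (strong_mem_iff c.hT hα hx).2 (hL.inf _ (hαm x hx) h1)
  · intro g x hx
    refine (him hMN hαM _).2 ?_
    push_cast
    rw [hlift x (hMN hx)]
    exact hL.Mn g _ (hαM.mem hx)
  · intro g hg hfix
    refine (him hMN hαM _).2 (hL.cen g (hBV g hg) fun y hy => ?_)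
    obtain ⟨x, hx, rfl⟩ := hαM.mem_iff.1 hy
    have h1 := congrArg Subtype.val (hfix x hx)
    push_cast at h1
    rwa [hlift x (hMN hx)] at h1
  · intro Q hMQ hQN b hb hpo hbQ
    obtain ⟨Q', hQ'⟩ := (hα.restrict hQN).exists_iso
    obtain ⟨β, hβ, e1, e2⟩ := hQ'.symm
    have hM'Q' : M' ≤ Q' := fun y hy => by
      obtain ⟨x, hx, rfl⟩ := hαM.mem_iff.1 hy
      exact hQ'.mem (hMQ hx)
    have hQ'N : Q' ≤ normalizerIn S M' := fun y hy => by
      obtain ⟨x, hx, rfl⟩ := hQ'.mem_iff.1 hy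
      exact hαm x (hQN hx)
    obtain ⟨a', ha', h1⟩ := hL.ao Q' hM'Q' hQ'N b hb (by rwa [Subgroup.orderOf_coe]) (fun y hy => by
      obtain ⟨x, hx, rfl⟩ := hQ'.mem_iff.1 hy
      have h2 := (him hQN hQ' _).1 (hbQ x hx)
      push_cast at h2
      rwa [hlift x (hQN hx)] at h2)
    refine ⟨_, ha'.transport c hβ hQ' e2 e1, fun x hx => Subtype.ext ?_⟩
    have h3 := h1 _ (hQ'.mem hx)
    have h4 : β (a' (α x)) ∈ Q := hβ.mem (ha'.pp.mem (hQ'.mem hx))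
    rw [hlift _ (hQN h4), e2 _ (ha'.pp.mem (hQ'.mem hx)), h3]
    push_cast
    rw [hlift x (hQN hx)]
  · intro l hl
    obtain ⟨β, hβ, e1, e2⟩ := hαM.symm
    have h1 : FMap E M' (fun y => α (l (β y))) := c.str.transport hMT hαM e1 hl
    have h2 : FIso E M' M' (fun y => α (l (β y))) := ⟨h1, ((hβ.trans (sub_fiso c.hE.sub hl)).trans hαM).2⟩
    obtain ⟨g, hg, h3⟩ := hL.l1 _ h2
    have hgH : g ∈ H := by
      obtain ⟨b, hb, t', ht', rfl⟩ := hg
      obtain ⟨t, ht, rfl⟩ := hαN t' ht'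
      refine H.mul_mem (hBH hb) ?_
      rw [← hι₀ t (hTN ht)]
      exact hιH _
    refine ⟨⟨g, hgH⟩, hBV' _ hg, fun x hx => Subtype.ext ?_⟩
    have h4 := h3 (α x) (hαM.mem hx)
    rw [e1 x hx] at h4
    rw [hlift _ (hMN (hl.mem hx)), h4]
    push_cast
    rw [hlift x (hMN hx)]
  · intro Q a ha hQM
    have hQN : Q ≤ normalizerIn S M := hQM ▸ normal_inf c ha.pp.le
    obtain ⟨Q', hQ'⟩ := (hα.restrict hQN).exists_iso
    obtain ⟨β, hβ, e1, e2⟩ := hQ'.symm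
    have hQ'M : Q' ⊓ T = M' := by
      have h3 := fiso_inf c.hT hQ'
      rw [hQM] at h3
      ext y
      rw [h3.mem_iff, hαM.mem_iff]
    obtain ⟨g, hg, h3⟩ := hL.l4 Q' _ (ha.transport c hQ' hβ e1 e2) hQ'M
    have hgH : g ∈ H := by
      obtain ⟨b, hb, t', ht', rfl⟩ := hg
      obtain ⟨t, ht, rfl⟩ := hαN t' ht'
      refine H.mul_mem (hBH hb) ?_
      rw [← hι₀ t (hTN ht)]
      exact hιH _
    refine ⟨⟨g, hgH⟩, hBV' _ hg, fun x hx => Subtype.ext ?_⟩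
    have h4 := h3 (α x) (hQ'.mem hx)
    rw [e1 x hx] at h4
    rw [hlift _ (hQN (ha.pp.mem hx)), h4]
    push_cast
    rw [hlift x (hQN hx)]
  · rintro ⟨g, hg⟩
    have h1 : g ∈ B' ⊔ ι₀.range := hg
    rw [← SetLike.mem_coe, Subgroup.normal_mul] at h1
    obtain ⟨b, hb, v, ⟨x, hx⟩, h⟩ := Set.mem_mul.1 h1
    refine ⟨⟨b, hBH hb⟩, hb, x, x.2, Subtype.ext ?_⟩
    push_cast
    rw [hlift x x.2, ← hι₀ x x.2, ← h, ← hx]

/-- conjugation by elements of `S` -/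
theorem ET.sconj [Finite S] (c : Cx F E p) (h : ET F E p P Q f) {s : Ω} (hs : s ∈ S) :
    ∃ P' Q' f', ET F E p P' Q' f' ∧ FIso F P P' (fun x => s * x * s⁻¹) ∧ FIso F Q Q' (fun x => s * x * s⁻¹) ∧
      ∀ x ∈ P, f' (s * x * s⁻¹) = s * f x * s⁻¹ := by
  have h1 := fiso_conj F h.iso.le_left hs
  have h2 := fiso_conj F h.iso.le_right hs
  obtain ⟨f', hf', h3⟩ := h.move c (fmap_conj F le_rfl hs) c.TS h.iso.le_left h1 h2
  exact ⟨_, _, f', hf', h1, h2, h3⟩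

/-- an automorphism of order prime to `p` is induced by an element of order prime to `p` -/
theorem exists_pprime_real {G : Type*} [Group G] [Finite G] [Fact p.Prime] {V : Subgroup Ω} {ι : ↥V →* G}
    {L : FusionSystem V} (ha : PP L p R a) {g : G} (h : ∀ x ∈ R, lift ι (a x) = g * lift ι x * g⁻¹) :
    ∃ g' : G, ¬ p ∣ orderOf g' ∧ ∀ x ∈ R, lift ι (a x) = g' * lift ι x * g'⁻¹ := by
  obtain ⟨hai, n, hpn, hfix⟩ := ha
  have hgit : ∀ (k : ℕ), ∀ x ∈ R, lift ι (a^[k] x) = g ^ k * lift ι x * (g ^ k)⁻¹ := by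
    intro k
    induction k with
    | zero => intro x _; simp
    | succ k ih =>
      intro x hx
      rw [Function.iterate_succ_apply', h _ (iter_mem hai hx k), ih x hx, pow_succ']
      group
  have ho : orderOf g ≠ 0 := (orderOf_pos g).ne'
  obtain ⟨k, r, hr, hor⟩ := Nat.exists_eq_pow_mul_and_not_dvd ho p (Fact.out : p.Prime).ne_one
  have hcop : (p ^ k).Coprime n := Nat.Coprime.pow_left k ((Fact.out : p.Prime).coprime_iff_not_dvd.2 hpn)
  obtain ⟨m, hm0, hm1⟩ := Nat.chineseRemainder hcop 0 1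
  have hm0' : p ^ k ∣ m := (Nat.modEq_zero_iff_dvd).1 hm0
  have hord : (g ^ m) ^ r = 1 := by
    obtain ⟨c, rfl⟩ := hm0'
    calc (g ^ (p ^ k * c)) ^ r = (g ^ orderOf g) ^ c := by rw [← pow_mul, ← pow_mul, hor]; ring_nf
      _ = 1 := by rw [pow_orderOf_eq_one, one_pow]
  refine ⟨g ^ m, fun hd => hr (hd.trans (orderOf_dvd_of_pow_eq_one hord)), fun x hx => ?_⟩
  rw [← hgit m x hx]
  congr 1
  have h3 : ∀ j : ℕ, a^[n * j] x = x := fun j => iter_fix_mul (hfix x hx) j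
  rcases Nat.lt_or_ge m 1 with h4 | h4
  · have hm00 : m = 0 := by omega
    have h5 : n = 1 := by
      rw [hm00] at hm1
      have := (Nat.modEq_iff_dvd' (by omega : 0 ≤ 1)).1 hm1
      simpa using this
    have h6 := hfix x hx
    rw [h5] at h6
    rw [hm00]
    exact h6
  · have h5 : n ∣ m - 1 := (Nat.modEq_iff_dvd' h4).1 hm1.symm
    obtain ⟨q, hq⟩ := h5
    have h6 : m = n * q + 1 := by omega
    rw [h6, Function.iterate_succ_apply']
    rw [h3]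

section locT

variable {G : Type u} [Group G] [Finite G] {ι : ↥(normalizerIn S M) →* G} {B : Subgroup G}

theorem LocT.pow_mem [Finite S] [Fact p.Prime] (c : Cx F E p) (h : LocT F E p M ι B) (g : G) : ∃ k : ℕ, g ^ p ^ k ∈ B := by
  obtain ⟨b, hb, x, hx, rfl⟩ := h.top g
  obtain ⟨k, hk⟩ := c.hS ⟨x, hx.1⟩
  have hk' : x ^ p ^ k = 1 := by simpa using congrArg Subtype.val hk
  have hBn := h.loc.Bn
  refine ⟨k, ?_⟩
  rw [← QuotientGroup.eq_one_iff, QuotientGroup.mk_pow, QuotientGroup.mk_mul, (QuotientGroup.eq_one_iff b).2 hb, one_mul,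
    ← QuotientGroup.mk_pow]
  have h1 : lift ι x ^ p ^ k = 1 := by
    rw [lift_of_mem hx, ← map_pow]
    have : (⟨x, hx⟩ : normalizerIn S M) ^ p ^ k = 1 := Subtype.ext (by simpa using hk')
    rw [this, map_one]
  rw [h1]; rfl

theorem LocT.mem_B [Finite S] [Fact p.Prime] (c : Cx F E p) (h : LocT F E p M ι B) {g : G} (hg : ¬ p ∣ orderOf g) : g ∈ B := by
  obtain ⟨k, hk⟩ := h.pow_mem c g
  have hBn := h.loc.Bn
  rw [← QuotientGroup.eq_one_iff] at hk ⊢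
  rw [QuotientGroup.mk_pow] at hk
  have h2 : (QuotientGroup.mk g : G ⧸ B) ^ orderOf g = 1 := by rw [← QuotientGroup.mk_pow, pow_orderOf_eq_one]; rfl
  have h3 : orderOf (QuotientGroup.mk g : G ⧸ B) ∣ p ^ k := orderOf_dvd_of_pow_eq_one hk
  have h4 : orderOf (QuotientGroup.mk g : G ⧸ B) ∣ orderOf g := orderOf_dvd_of_pow_eq_one h2
  have h5 : (p ^ k).Coprime (orderOf g) := Nat.Coprime.pow_left k ((Fact.out : p.Prime).coprime_iff_not_dvd.2 hg)
  exact orderOf_eq_one_iff.1 (Nat.dvd_one.1 (h5 ▸ Nat.dvd_gcd h3 h4))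

/-- elements of `range` in `BV` come from `T` -/
theorem Loc.mem_T (c : Cx F E p) (h : Loc F E p M ι B) {x : Ω} (hx : x ∈ normalizerIn S M) (hg : BV ι B T (lift ι x)) :
    x ∈ T := by
  obtain ⟨b, hb, t, ht, e⟩ := hg
  have htN := nT_le c.TS ht
  have h1 : lift ι (x * t⁻¹) ∈ B := by
    rw [lift_mul hx (Subgroup.inv_mem _ htN), lift_inv htN, e]
    simpa using hb
  have h2 := h.inf _ (Subgroup.mul_mem _ hx (Subgroup.inv_mem _ htN)) h1
  have e2 : x = x * t⁻¹ * t := by group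
  rw [e2]
  exact T.mul_mem h2 ht.1

theorem Loc.MN (c : Cx F E p) (h : Loc F E p M ι B) : M ≤ normalizerIn S M := le_normalizerIn (h.tc.1.trans c.TS)

theorem LocT.cent [Finite S] [Fact p.Prime] (c : Cx F E p) (h : LocT F E p M ι B) {g : G}
    (hg : ∀ x ∈ M, g * lift ι x * g⁻¹ = lift ι x) : ∃ y ∈ centralizerIn S M, lift ι y = g := by
  have hMN := h.loc.MN c
  let K : Subgroup G := Subgroup.centralizer (im ι M : Set G)
  have hK : K.Normal := ⟨fun k hk x => mem_centralizer_iff'.2 fun m hm => by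
    obtain ⟨y, hy, rfl⟩ := (mem_im_iff' hMN).1 hm
    have h1 : x⁻¹ * lift ι y * x⁻¹⁻¹ ∈ im ι M := h.loc.Mn x⁻¹ y hy
    have h2 := mem_centralizer_iff'.1 hk _ h1
    calc x * k * x⁻¹ * lift ι y * (x * k * x⁻¹)⁻¹ = x * (k * (x⁻¹ * lift ι y * x⁻¹⁻¹) * k⁻¹) * x⁻¹ := by group
      _ = lift ι y := by rw [h2]; group⟩
  obtain ⟨S₀, hS₀⟩ := h.loc.syl
  have hKp : IsPGroup p K := by
    intro k
    obtain ⟨j, hj⟩ := h.pow_mem c (k : G)
    have h1 : (k : G) ^ p ^ j ∈ im ι M := h.loc.cen _ (BV.of_B hj) fun x hx =>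
      mem_centralizer_iff'.1 (K.pow_mem k.2 _) _ ((mem_im_iff' hMN).2 ⟨x, hx, rfl⟩)
    have h2 : (k : G) ^ p ^ j ∈ (S₀ : Subgroup G) := by
      obtain ⟨x, -, hx⟩ := h1
      rw [hS₀, ← hx]; exact ⟨x, rfl⟩
    obtain ⟨l, hl⟩ := S₀.2 ⟨_, h2⟩
    refine ⟨j + l, Subtype.ext ?_⟩
    have h9 := congrArg Subtype.val hl
    push_cast at h9 ⊢
    rw [pow_add, pow_mul]
    exact h9
  have hle := (le_pCore hK hKp).trans (pCore_le_sylow S₀)
  have hgK : g ∈ K := mem_centralizer_iff'.2 fun m hm => by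
    obtain ⟨y, hy, rfl⟩ := (mem_im_iff' hMN).1 hm
    exact hg y hy
  have h3 := hle hgK
  rw [hS₀] at h3
  obtain ⟨y, rfl⟩ := h3
  refine ⟨y, ⟨y.2.1, mem_centralizer_iff'.2 fun x hx => ?_⟩, lift_coe y⟩
  have h4 := hg x hx
  rw [← lift_coe, ← lift_conj y.2 (hMN hx)] at h4
  exact lift_inj h.loc.inj (Subgroup.mul_mem _ (Subgroup.mul_mem _ y.2 (hMN hx)) (Subgroup.inv_mem _ y.2)) (hMN hx) h4

/-- maps of the local group: up to conjugation they are generated by the basic automorphisms -/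
theorem LocT.gen [Finite S] [Fact p.Prime] (c : Cx F E p) (h : LocT F E p M ι B) {g : G} {φ : Ω → Ω}
    (hP : P ≤ normalizerIn S M) (hφP : ∀ x ∈ P, φ x ∈ normalizerIn S M) (hφ : ∀ x ∈ P, lift ι (φ x) = g * lift ι x * g⁻¹) :
    ∃ x ∈ normalizerIn S M, ∃ g', BV ι B T g' ∧ ∃ R f, ET F E p (P ⊔ M) R f ∧
      (∀ y ∈ P ⊔ M, lift ι (f y) = g' * lift ι y * g'⁻¹) ∧ ∀ y ∈ P, φ y = x * f y * x⁻¹ := by
  have hMN := h.loc.MN c
  have hNS := normalizerIn_le S M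
  have hBn := h.loc.Bn
  have hinj := h.loc.inj
  have hMS := hMN.trans hNS
  obtain ⟨S₀, hS₀⟩ := h.loc.syl
  have hNf : Finite (normalizerIn S M) := finite_of_le hNS
  have hNp : IsPGroup p (normalizerIn S M) := isPGroup_of_le c.hS hNS
  let L : FusionSystem (normalizerIn S M) := FusionSemi.pull ι hinj
  have hL : L.IsRealizedBy ι := FusionSemi.pull_isRealizedBy ι hinj
  have hLs : L.IsSaturated p := isSaturated_of_isRealizedBy ι hL S₀ hS₀
  -- maps realized in the group preserve `M`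
  have hMmap : ∀ {V : Subgroup Ω} {f : Ω → Ω} {g : G}, V ≤ normalizerIn S M → (∀ x ∈ V, f x ∈ normalizerIn S M) →
      (∀ x ∈ V, lift ι (f x) = g * lift ι x * g⁻¹) → ∀ x ∈ V, x ∈ M → f x ∈ M := by
    intro V f g hV hfV hf x hx hxM
    have h1 := h.loc.Mn g x hxM
    rw [← hf x hx] at h1
    exact (lift_mem_im_iff hinj hMN (hfV x hx)).1 h1
  have hETN : ∀ {P R : Subgroup Ω} {f : Ω → Ω}, P ≤ normalizerIn S M → ET F E p (P ⊔ M) R f → (∀ x ∈ M, f x ∈ M) →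
      ∀ x ∈ P ⊔ M, f x ∈ normalizerIn S M := by
    intro P R f hP hf hfM x hx
    have h1 : FIso F M M f := fiso_restrict hf.iso.1 le_sup_right hfM
    have h2 := h1.map_normalizer hf.iso.1 le_sup_right hx (sup_le hP hMN hx).2
    exact ⟨hf.iso.1.map_mem hx, h2⟩
  have hfM' : ∀ {P R : Subgroup Ω} {f : Ω → Ω} {g : G}, P ≤ normalizerIn S M → ET F E p (P ⊔ M) R f →
      (∀ y ∈ P ⊔ M, lift ι (f y) = g * lift ι y * g⁻¹) → ∀ x ∈ M, f x ∈ M := by
    intro P R f g hP hf hfg x hx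
    have hxs : x ∈ P ⊔ M := (le_sup_right : M ≤ P ⊔ M) hx
    have h1 := h.loc.Mn g x hx
    rw [← hfg x hxs] at h1
    by_cases hfx : f x ∈ normalizerIn S M
    · exact (lift_mem_im_iff hinj hMN hfx).1 h1
    · have h2 : lift ι (f x) = 1 := dif_neg hfx
      rw [hfg x hxs] at h2
      have h3 : lift ι x = 1 := by
        calc lift ι x = g⁻¹ * (g * lift ι x * g⁻¹) * g := by group
          _ = 1 := by rw [h2]; group
      have h4 : x = 1 := lift_inj hinj (hMN hx) (Subgroup.one_mem _) (by rw [h3, lift_one])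
      rw [h4, hf.iso.1.map_one]
      exact M.one_mem
  have main : ∀ (P : Subgroup Ω) (φ : Ω → Ω), FMap L P φ → ∃ x ∈ normalizerIn S M, ∃ g', BV ι B T g' ∧
      ∃ R f, ET F E p (P ⊔ M) R f ∧
      (∀ y ∈ P ⊔ M, lift ι (f y) = g' * lift ι y * g'⁻¹) ∧ ∀ y ∈ P, φ y = x * f y * x⁻¹ := by
    refine FusionPerp.sat_induction hNp hLs _ ?_ ?_ ?_ ?_ ?_
    · rintro P φ φ' - ⟨x, hx, g', h1, R, f, h2, h3, h4⟩ h5
      exact ⟨x, hx, g', h1, R, f, h2, h3, fun y hy => by rw [← h5 y hy]; exact h4 y hy⟩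
    · intro P s hP hs
      refine ⟨s, hs, 1, BV.of_B B.one_mem, _, _, ET.id (sup_le (hP.trans hNS) hMS), fun y _ => by group, fun y _ => rfl⟩
    · rintro P Q φ₁ φ₂ hφ₁ ⟨x₁, hx₁, g₁, h1, R₁, f₁, hf₁, h3, h4⟩ hφ₂ ⟨x₂, hx₂, g₂, k1, R₂, f₂, hf₂, k3, k4⟩ hPQ
      have hx₁' : x₁⁻¹ ∈ normalizerIn S M := Subgroup.inv_mem _ hx₁
      obtain ⟨P', Q', f₂', hf₂', hP', hQ', e⟩ := hf₂.sconj c (s := x₁⁻¹) (hNS hx₁')
      have hR₁ : R₁ ≤ P' := by
        have h5 : ∀ y ∈ P ⊔ M, f₁ y ∈ P' := by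
          refine map_sup_mem hf₁.iso.1 (fun y hy => ?_) (fun y hy => ?_)
          · have h6 : φ₁ y ∈ Q ⊔ M := (le_sup_left : Q ≤ Q ⊔ M) (hPQ y hy)
            have h7 := hP'.mem h6
            rw [h4 y hy] at h7
            have e1 : x₁⁻¹ * (x₁ * f₁ y * x₁⁻¹) * x₁⁻¹⁻¹ = f₁ y := by group
            rwa [e1] at h7
          · have h6 : f₁ y ∈ M := hfM' hφ₁.le hf₁ h3 y hy
            have h7 : x₁ * f₁ y * x₁⁻¹ ∈ M := (Subgroup.mem_normalizer_iff.1 hx₁.2 _).1 h6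
            have h8 := hP'.mem ((le_sup_right : M ≤ Q ⊔ M) h7)
            have e1 : x₁⁻¹ * (x₁ * f₁ y * x₁⁻¹) * x₁⁻¹⁻¹ = f₁ y := by group
            rwa [e1] at h8
        intro y hy
        obtain ⟨z, hz, rfl⟩ := hf₁.iso.mem_iff.1 hy
        exact h5 z hz
      obtain ⟨R₃, hR₃⟩ := hf₂'.exists_restrict hR₁
      have hN1 := hETN hφ₁.le hf₁ (hfM' hφ₁.le hf₁ h3)
      have hN2 := hETN hφ₂.le hf₂ (hfM' hφ₂.le hf₂ k3)
      have hval : ∀ y ∈ P ⊔ M, ∃ z ∈ Q ⊔ M, x₁⁻¹ * z * x₁⁻¹⁻¹ = f₁ y := fun y hy =>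
        hP'.mem_iff.1 (hR₁ (hf₁.iso.mem hy))
      refine ⟨x₂ * x₁, Subgroup.mul_mem _ hx₂ hx₁, lift ι x₁⁻¹ * g₂ * (lift ι x₁⁻¹)⁻¹ * g₁, ?_, R₃, _, hf₁.comp hR₃, ?_, ?_⟩
      · exact (k1.conj hBn c.hT hx₁').mul hBn c.TS h1
      · intro y hy
        obtain ⟨z, hz, hz'⟩ := hval y hy
        show lift ι (f₂' (f₁ y)) = _
        have hzN : z ∈ normalizerIn S M := sup_le hφ₂.le hMN hz
        rw [← hz', e z hz, lift_conj hx₁' (hN2 z hz), k3 z hz]
        have h6 := h3 y hy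
        rw [← hz', lift_conj hx₁' hzN] at h6
        have h7 : lift ι z = (lift ι x₁⁻¹)⁻¹ * (g₁ * lift ι y * g₁⁻¹) * lift ι x₁⁻¹ := by rw [← h6]; group
        rw [h7]; group
      · intro y hy
        have hy' : y ∈ P ⊔ M := (le_sup_left : P ≤ P ⊔ M) hy
        show φ₂ (φ₁ y) = x₂ * x₁ * f₂' (f₁ y) * (x₂ * x₁)⁻¹
        have h6 : φ₁ y ∈ Q ⊔ M := (le_sup_left : Q ≤ Q ⊔ M) (hPQ y hy)
        have h7 := e _ h6
        rw [h4 y hy] at h7
        have e1 : x₁⁻¹ * (x₁ * f₁ y * x₁⁻¹) * x₁⁻¹⁻¹ = f₁ y := by group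
        rw [e1] at h7
        rw [k4 _ (hPQ y hy), h7, h4 y hy]
        group
    · rintro P Q φ φ' hφ ⟨x, hx, g', h1, R, f, hf, h3, h4⟩ hinv
      obtain ⟨k, hk, k1, k2⟩ := hf.exists_inv c
      obtain ⟨R', Q', k', hk', hR', hQ', e⟩ := hk.sconj c (s := x) (hNS hx)
      have hfM := hfM' hφ.le_left hf h3
      have hfMi : FIso F M M f := fiso_restrict hf.iso.1 le_sup_right hfM
      have hN1 := hETN hφ.le_left hf hfM
      have hQM : Q ⊔ M ≤ R' := by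
        refine sup_le (fun y hy => ?_) (fun y hy => ?_)
        · obtain ⟨z, hz, rfl⟩ := hφ.mem_iff.1 hy
          rw [h4 z hz]
          exact hR'.mem (hf.iso.mem ((le_sup_left : P ≤ P ⊔ M) hz))
        · have h5 : x⁻¹ * y * x ∈ M := by
            have := (Subgroup.mem_normalizer_iff.1 (Subgroup.inv_mem _ hx.2) y).1 hy
            rwa [inv_inv] at this
          obtain ⟨m, hm, h6⟩ := hfMi.mem_iff.1 h5
          have h7 := hR'.mem (hf.iso.mem ((le_sup_right : M ≤ P ⊔ M) hm))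
          rw [h6] at h7
          have e1 : x * (x⁻¹ * y * x) * x⁻¹ = y := by group
          rwa [e1] at h7
      obtain ⟨Q'', hQ''⟩ := hk'.exists_restrict hQM
      have hRN : R ≤ normalizerIn S M := fun y hy => by
        obtain ⟨z, hz, rfl⟩ := hf.iso.mem_iff.1 hy
        exact hN1 z hz
      have hPMN : P ⊔ M ≤ normalizerIn S M := sup_le hφ.le_left hMN
      refine ⟨x⁻¹, Subgroup.inv_mem _ hx, lift ι x * g'⁻¹ * (lift ι x)⁻¹, (h1.inv hBn c.TS).conj hBn c.hT hx, Q'', k', hQ'', ?_, ?_⟩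
      · intro y hy
        obtain ⟨z, hz, rfl⟩ := hR'.mem_iff.1 (hQM hy)
        obtain ⟨w, hw, rfl⟩ := hf.iso.mem_iff.1 hz
        rw [e _ hz, k1 w hw, lift_conj hx (hPMN hw), lift_conj hx (hN1 w hw), h3 w hw]
        group
      · intro y hy
        obtain ⟨z, hz, rfl⟩ := hφ.mem_iff.1 hy
        have hz' : z ∈ P ⊔ M := (le_sup_left : P ≤ P ⊔ M) hz
        rw [hinv z hz, h4 z hz, e _ (hf.iso.mem hz'), k1 z hz']
        group
    · intro P a hPc ha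
      obtain ⟨-, -, g₀, hg₀⟩ := (fmap_realized_iff hL).1 ha.map
      obtain ⟨g, hpo, hg⟩ := exists_pprime_real ha hg₀
      have hgB := h.mem_B c hpo
      have hPN : P ≤ normalizerIn S M := ha.le
      have hPMN : P ⊔ M ≤ normalizerIn S M := sup_le hPN hMN
      obtain ⟨a', ha', h1⟩ := h.loc.ao (P ⊔ M) le_sup_right hPMN g hgB hpo (fun x hx => by
        have h2 : P ⊔ M ≤ ((im ι (P ⊔ M)).comap ((MulAut.conj g).toMonoidHom.comp ι)).map (normalizerIn S M).subtype := by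
          refine sup_le (fun y hy => ?_) (fun y hy => ?_)
          · refine ⟨⟨y, hPN hy⟩, ?_, rfl⟩
            show g * ι ⟨y, hPN hy⟩ * g⁻¹ ∈ im ι (P ⊔ M)
            rw [← lift_of_mem (hPN hy), ← hg y hy]
            exact (mem_im_iff' hPMN).2 ⟨_, (le_sup_left : P ≤ P ⊔ M) (ha.mem hy), rfl⟩
          · refine ⟨⟨y, hMN hy⟩, ?_, rfl⟩
            show g * ι ⟨y, hMN hy⟩ * g⁻¹ ∈ im ι (P ⊔ M)
            rw [← lift_of_mem (hMN hy)]
            obtain ⟨z, hz, h3⟩ := (mem_im_iff' hMN).1 (h.loc.Mn g y hy)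
            rw [← h3]
            exact (mem_im_iff' hPMN).2 ⟨_, (le_sup_right : M ≤ P ⊔ M) hz, rfl⟩
        obtain ⟨y, hy, hyx⟩ := h2 hx
        have hyx' : (y : Ω) = x := hyx
        rw [← hyx', lift_coe]
        exact hy)
      refine ⟨1, Subgroup.one_mem _, g, BV.of_B hgB, P ⊔ M, a', ET.base ha' le_rfl ha'.pp.1, h1, fun y hy => ?_⟩
      have hy' : y ∈ P ⊔ M := (le_sup_left : P ≤ P ⊔ M) hy
      have h2 : a y = a' y := lift_inj hinj (hPN (ha.mem hy)) (hPMN (ha'.pp.mem hy')) (by rw [hg y hy, h1 y hy'])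
      rw [h2]; group
  exact main P φ ((fmap_realized_iff hL).2 ⟨hP, hφP, g, hφ⟩)

/-- the maps induced by elements of `BV` are generated by the basic automorphisms -/
theorem LocT.real [Finite S] [Fact p.Prime] (c : Cx F E p) (h : LocT F E p M ι B) {g : G} {φ : Ω → Ω} (hg : BV ι B T g)
    (hMP : M ≤ P) (hP : P ≤ normalizerIn S M) (hφP : ∀ x ∈ P, φ x ∈ normalizerIn S M)
    (hφ : ∀ x ∈ P, lift ι (φ x) = g * lift ι x * g⁻¹) : ∃ Q, ET F E p P Q φ := by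
  obtain ⟨x, hx, g', hg', R, f, hf, h1, h2⟩ := h.gen c hP hφP hφ
  have hPM : P ⊔ M = P := sup_eq_left.2 hMP
  rw [hPM] at hf h1
  have hMN := h.loc.MN c
  have hNS := normalizerIn_le S M
  have hBn := h.loc.Bn
  have hinj := h.loc.inj
  have hfN : ∀ y ∈ P, f y ∈ normalizerIn S M := fun y hy => by
    have e : f y = x⁻¹ * φ y * x := by rw [h2 y hy]; group
    rw [e]
    exact Subgroup.mul_mem _ (Subgroup.mul_mem _ (Subgroup.inv_mem _ hx) (hφP y hy)) hx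
  have hd : ∀ y ∈ P, g⁻¹ * (lift ι x * g') * lift ι y * (g⁻¹ * (lift ι x * g'))⁻¹ = lift ι y := by
    intro y hy
    have h3 := hφ y hy
    rw [h2 y hy, lift_conj hx (hfN y hy), h1 y hy] at h3
    calc g⁻¹ * (lift ι x * g') * lift ι y * (g⁻¹ * (lift ι x * g'))⁻¹ =
          g⁻¹ * (lift ι x * (g' * lift ι y * g'⁻¹) * (lift ι x)⁻¹) * g := by group
      _ = lift ι y := by rw [h3]; group
  obtain ⟨d, hdC, hd'⟩ := h.cent c (fun y hy => hd y (hMP hy))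
  have hdN := centralizerIn_le_normalizerIn S M hdC
  have hdP : ∀ y ∈ P, d * y * d⁻¹ = y := fun y hy => by
    have h3 := hd y hy
    rw [← hd', ← lift_conj hdN (hP hy)] at h3
    exact lift_inj hinj (Subgroup.mul_mem _ (Subgroup.mul_mem _ hdN (hP hy)) (Subgroup.inv_mem _ hdN)) (hP hy) h3
  have hdi : d⁻¹ ∈ normalizerIn S M := Subgroup.inv_mem _ hdN
  have ht : x * d⁻¹ ∈ T := by
    refine h.loc.mem_T c (Subgroup.mul_mem _ hx hdi) ?_
    have e : lift ι (x * d⁻¹) = g * (lift ι d * g'⁻¹ * (lift ι d)⁻¹) := by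
      rw [lift_mul hx hdi, lift_inv hdN, hd']; group
    rw [e]
    exact hg.mul hBn c.TS ((hg'.inv hBn c.TS).conj hBn c.hT hdN)
  obtain ⟨P', R', f', hf', hP', hR', e⟩ := hf.sconj c (s := d) (hNS hdN)
  have hPP' : P' = P := by
    ext y
    rw [hP'.mem_iff]
    constructor
    · rintro ⟨z, hz, rfl⟩
      show d * z * d⁻¹ ∈ P
      rwa [hdP z hz]
    · intro hy; exact ⟨y, hy, hdP y hy⟩
  subst hPP'
  have hconj := fiso_conj F hR'.le_right (c.TS ht)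
  refine ⟨_, (hf'.comp (ET.conj ht hconj)).congr fun y hy => ?_⟩
  have h3 := e y hy
  rw [hdP y hy] at h3
  show x * d⁻¹ * f' y * (x * d⁻¹)⁻¹ = φ y
  rw [h3, h2 y hy]; group

end locT

end Cfsg.Agent.Lib.FusionES
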