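import Cfsg.Agent.Lib.FusionES3

/-!
Well placed subgroups of `T`.
-/

set_option autoImplicit false
set_option linter.unusedSectionVars false

universe u

open Cfsg Cfsg.FusionSystem Cfsg.Agent.Lib.FusionBasic Cfsg.Agent.Lib.FusionSat Cfsg.Agent.Lib.FusionNormal
  Cfsg.Agent.Lib.FusionInvar Cfsg.Agent.Lib.FusionTools Cfsg.Agent.Lib.FusionPP Cfsg.Agent.Lib.FusionStrong
  Cfsg.Agent.Lib.FusionSys Cfsg.Agent.Lib.FusionFrat Cfsg.Agent.Lib.FusionPrime Cfsg.Agent.Lib.FusionTC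
  Cfsg.Agent.Lib.FusionClosed Cfsg.Agent.Lib.FusionStab Cfsg.Agent.Lib.FusionZeta

namespace Cfsg.Agent.Lib.FusionES

variable {Ω : Type u} [Group Ω] {S T : Subgroup Ω} {F : FusionSystem S} {E : FusionSystem T}
  {P Q R U M M' X Y Z : Subgroup Ω} {a b f g ψ θ θ' μ : Ω → Ω} {p : ℕ} {y y' t : Ω}

/-- maps of `E` followed by the conjugation with `y` -/
def TM (S : Subgroup Ω) (E : FusionSystem T) (y : Ω) (P : Subgroup Ω) (θ : Ω → Ω) : Prop :=
  y ∈ S ∧ ∃ e, FMap E P e ∧ ∀ x ∈ P, θ x = y * e x * y⁻¹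

theorem TM.congr (h : TM S E y P θ) (h' : ∀ x ∈ P, θ x = θ' x) : TM S E y P θ' := by
  obtain ⟨h1, e, h2, h3⟩ := h
  exact ⟨h1, e, h2, fun x hx => by rw [← h' x hx]; exact h3 x hx⟩

theorem TM.restrict (h : TM S E y P θ) (hQ : Q ≤ P) : TM S E y Q θ := by
  obtain ⟨h1, e, h2, h3⟩ := h
  exact ⟨h1, e, h2.restrict hQ, fun x hx => h3 x (hQ hx)⟩

theorem TM.fmap (c : Cx F E p) (h : TM S E y P θ) : FMap F P θ := by
  obtain ⟨h1, e, h2, h3⟩ := h
  exact ((sub_fmap c.hE.sub h2).comp (fmap_conj F le_rfl h1) (fun x hx => c.TS (h2.map_mem hx))).congr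
    fun x hx => (h3 x hx).symm

theorem TM.map_mem (c : Cx F E p) (h : TM S E y P θ) {x : Ω} (hx : x ∈ P) : θ x ∈ T := by
  obtain ⟨h1, e, h2, h3⟩ := h
  rw [h3 x hx]
  exact c.norm h1 (h2.map_mem hx)

/-- `E` is invariant under conjugation by elements of `S` -/
theorem sconj_E [Finite S] (c : Cx F E p) (he : FMap E P f) {s : Ω} (hs : s ∈ S) (hR : ∀ y, y ∈ R ↔ ∃ x ∈ P, s * x * s⁻¹ = y) :
    ∃ k, FMap E R k ∧ ∀ x ∈ P, k (s * x * s⁻¹) = s * f x * s⁻¹ :=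
  c.str P T R f (fun x => s * x * s⁻¹) he.le le_rfl he (fun x hx => he.map_mem hx) (fmap_conj F c.TS hs) hR

theorem TM.conj (c : Cx F E p) (hP : P ≤ T) (hy : y ∈ S) : TM S E y P (fun x => y * x * y⁻¹) :=
  ⟨hy, fun x => x, fmap_id E hP, fun _ _ => rfl⟩

theorem TM.of_E (he : FMap E P f) : TM S E 1 P f := ⟨S.one_mem, f, he, fun x _ => by group⟩

theorem TM.to_E (c : Cx F E p) (h : TM S E y P θ) (hy : y ∈ T) : FMap E P θ := by
  obtain ⟨h1, e, h2, h3⟩ := h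
  exact (h2.comp (fmap_conj E le_rfl hy) (fun x hx => h2.map_mem hx)).congr fun x hx => (h3 x hx).symm

theorem TM.comp [Finite S] (c : Cx F E p) (h : TM S E y P θ) (h' : TM S E y' Q θ') (hPQ : ∀ x ∈ P, θ x ∈ Q) :
    TM S E (y' * y) P (fun x => θ' (θ x)) := by
  obtain ⟨h1, e, h2, h3⟩ := h
  obtain ⟨k1, e', k2, k3⟩ := h'
  have hy' : y⁻¹ ∈ S := S.inv_mem h1
  obtain ⟨k, hk, hk'⟩ := sconj_E c (R := Q.map (MulAut.conj y⁻¹).toMonoidHom) k2 hy' (fun z => by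
    rw [Subgroup.mem_map]
    exact ⟨fun ⟨x, hx, hxz⟩ => ⟨x, hx, hxz⟩, fun ⟨x, hx, hxz⟩ => ⟨x, hx, hxz⟩⟩)
  have hmem : ∀ x ∈ P, e x ∈ Q.map (MulAut.conj y⁻¹).toMonoidHom := fun x hx => by
    refine ⟨θ x, hPQ x hx, ?_⟩
    show y⁻¹ * θ x * y⁻¹⁻¹ = e x
    rw [h3 x hx]; group
  refine ⟨S.mul_mem k1 h1, fun x => k (e x), h2.comp hk hmem, fun x hx => ?_⟩
  have h4 := hk' (θ x) (hPQ x hx)
  have e1 : y⁻¹ * θ x * y⁻¹⁻¹ = e x := by rw [h3 x hx]; group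
  rw [e1] at h4
  show θ' (θ x) = y' * y * k (e x) * (y' * y)⁻¹
  rw [h4, k3 _ (hPQ x hx)]
  group

theorem TM.inv [Finite S] (c : Cx F E p) (h : TM S E y P θ) (hQ : FIso F P Q θ) (hg : ∀ x ∈ P, g (θ x) = x) :
    TM S E y⁻¹ Q g := by
  obtain ⟨h1, e, h2, h3⟩ := h
  obtain ⟨R, hR⟩ := h2.exists_iso
  obtain ⟨e', he', h4, h5⟩ := hR.symm
  obtain ⟨k, hk, hk'⟩ := sconj_E c (R := Q) he'.1 h1 (fun z => by
    rw [hQ.mem_iff]
    constructor
    · rintro ⟨x, hx, rfl⟩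
      exact ⟨e x, hR.mem hx, (h3 x hx).symm⟩
    · rintro ⟨x, hx, rfl⟩
      obtain ⟨w, hw, rfl⟩ := hR.mem_iff.1 hx
      exact ⟨w, hw, h3 w hw⟩)
  refine ⟨S.inv_mem h1, k, hk, fun z hz => ?_⟩
  obtain ⟨x, hx, rfl⟩ := hQ.mem_iff.1 hz
  have h6 := hk' (e x) (hR.mem hx)
  rw [h4 x hx, ← h3 x hx] at h6
  rw [hg x hx, h6]
  group

/-- the group of the tracked automorphisms -/
def GG (c : Cx F E p) [Finite S] (P : Subgroup Ω) (hP : P ≤ T) : Subgroup (Ω × MulAut P) where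
  carrier := {l | l.2 ∈ F.autGroup P ∧ TM S E l.1 P (autFun l.2)}
  one_mem' := ⟨Subgroup.one_mem _, (TM.of_E (fmap_id E hP)).congr fun x hx => (autFun_one hx).symm⟩
  mul_mem' := by
    rintro l l' ⟨h1, h2⟩ ⟨h3, h4⟩
    exact ⟨Subgroup.mul_mem _ h1 h3, (h4.comp c h2 fun x hx => autFun_mem _ hx).congr fun x hx => (autFun_mul _ _ hx).symm⟩
  inv_mem' := by
    rintro l ⟨h1, h2⟩
    exact ⟨Subgroup.inv_mem _ h1, h2.inv c ((fiso_autFun_iff (hP.trans c.TS)).2 h1) fun x hx => autFun_inv_apply _ hx⟩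

theorem mem_GG {c : Cx F E p} [Finite S] {hP : P ≤ T} {l : Ω × MulAut P} :
    l ∈ GG c P hP ↔ l.2 ∈ F.autGroup P ∧ TM S E l.1 P (autFun l.2) := Iff.rfl

def NN (E : FusionSystem T) (P : Subgroup Ω) : Subgroup (Ω × MulAut P) := T.prod (E.autGroup P)

theorem mem_NN {l : Ω × MulAut P} : l ∈ NN E P ↔ l.1 ∈ T ∧ l.2 ∈ E.autGroup P := Subgroup.mem_prod

def KK (c : Cx F E p) (P : Subgroup Ω) : Subgroup (Ω × MulAut P) where
  carrier := {l | ∃ t ∈ T, ∃ n ∈ normalizerIn S P, l.1 = t * n ∧ ∀ x ∈ P, autFun l.2 x = n * x * n⁻¹}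
  one_mem' := ⟨1, T.one_mem, 1, Subgroup.one_mem _, by simp, fun x hx => by
    show autFun (1 : MulAut P) x = _
    rw [autFun_one hx]; group⟩
  mul_mem' := by
    rintro l l' ⟨t, ht, n, hn, h1, h2⟩ ⟨t', ht', n', hn', h3, h4⟩
    refine ⟨t * (n * t' * n⁻¹), T.mul_mem ht (c.norm hn.1 ht'), n * n', Subgroup.mul_mem _ hn hn', ?_, fun x hx => ?_⟩
    · show l.1 * l'.1 = _
      rw [h1, h3]; group
    · show autFun (l.2 * l'.2) x = _
      rw [autFun_mul _ _ hx, h2 _ (autFun_mem _ hx), h4 x hx]; group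
  inv_mem' := by
    rintro l ⟨t, ht, n, hn, h1, h2⟩
    refine ⟨n⁻¹ * t⁻¹ * n, c.norm' hn.1 (T.inv_mem ht), n⁻¹, Subgroup.inv_mem _ hn, ?_, fun x hx => ?_⟩
    · show l.1⁻¹ = _
      rw [h1]; group
    · show autFun l.2⁻¹ x = _
      have h3 := h2 _ (autFun_mem l.2⁻¹ hx)
      rw [autFun_apply_inv _ hx] at h3
      calc autFun l.2⁻¹ x = n⁻¹ * (n * autFun l.2⁻¹ x * n⁻¹) * n⁻¹⁻¹ := by generalize autFun l.2⁻¹ x = w; group
        _ = n⁻¹ * x * n⁻¹⁻¹ := by rw [← h3]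

theorem mem_KK {c : Cx F E p} {l : Ω × MulAut P} :
    l ∈ KK c P ↔ ∃ t ∈ T, ∃ n ∈ normalizerIn S P, l.1 = t * n ∧ ∀ x ∈ P, autFun l.2 x = n * x * n⁻¹ := Iff.rfl

theorem KK_le_GG [Finite S] (c : Cx F E p) (hP : P ≤ T) : KK c P ≤ GG c P hP := by
  rintro l ⟨t, ht, n, hn, h1, h2⟩
  have h3 : FMap F P (autFun l.2) := (fmap_conj F (hP.trans c.TS) hn.1).congr fun x hx => (h2 x hx).symm
  refine ⟨(FMap_autFun_iff (hP.trans c.TS)).1 h3, ?_⟩
  have h4 : TM S E n P (autFun l.2) := (TM.conj c hP hn.1).congr fun x hx => (h2 x hx).symm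
  have h5 : TM S E t T (fun x => t * (t⁻¹ * x * t) * t⁻¹) :=
    ⟨c.TS ht, fun x => t⁻¹ * x * t, by simpa using fmap_conj E le_rfl (T.inv_mem ht), fun _ _ => rfl⟩
  rw [h1]
  exact (h4.comp c h5 fun x hx => h4.map_mem c hx).congr fun x hx => by group

theorem isPGroup_KK [Finite S] [Fact p.Prime] (c : Cx F E p) : IsPGroup p (KK c P) := by
  obtain ⟨k, hk⟩ := c.hS.exists_card_eq
  have hexp : ∀ s ∈ S, s ^ p ^ k = 1 := by
    intro s hs
    have h1 : (⟨s, hs⟩ : S) ^ Nat.card S = 1 := pow_card_eq_one'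
    rw [hk] at h1
    simpa using congrArg Subtype.val h1
  rintro ⟨l, t, ht, n, hn, h1, h2⟩
  refine ⟨k, Subtype.ext (Prod.ext ?_ ?_)⟩
  · show l.1 ^ p ^ k = 1
    rw [h1]
    exact hexp _ (S.mul_mem (c.TS ht) hn.1)
  · show l.2 ^ p ^ k = 1
    refine eq_one_of_autFun fun x hx => ?_
    have h3 : ∀ j : ℕ, autFun (l.2 ^ j) x = n ^ j * x * (n ^ j)⁻¹ := by
      intro j
      induction j with
      | zero => rw [pow_zero, pow_zero, autFun_one hx]; group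
      | succ j ih => rw [pow_succ', autFun_mul _ _ hx, h2 _ (autFun_mem _ hx), ih, pow_succ']; group
    rw [h3, hexp n hn.1]; group

theorem GG_norm_NN [Finite S] (c : Cx F E p) (hP : P ≤ T) : ∀ l ∈ GG c P hP, ∀ n ∈ NN E P, l * n * l⁻¹ ∈ NN E P := by
  intro l hl n hn
  refine mem_NN.2 ⟨c.norm hl.2.1 (mem_NN.1 hn).1, ?_⟩
  exact StrongInv.autGroup_normal c.str c.TS hP _ hl.1 _ (mem_NN.1 hn).2

theorem GG_pow [Finite S] [Fact p.Prime] (c : Cx F E p) (hP : P ≤ T) : ∀ l ∈ GG c P hP, ∃ k : ℕ, l ^ p ^ k ∈ NN E P := by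
  intro l hl
  obtain ⟨k, hk⟩ := c.hS ⟨l.1, hl.2.1⟩
  have hk' : l.1 ^ p ^ k = 1 := by simpa using congrArg Subtype.val hk
  refine ⟨k, ?_⟩
  have h1 : l ^ p ^ k ∈ GG c P hP := Subgroup.pow_mem _ hl _
  have h2 : (l ^ p ^ k).1 = 1 := hk'
  have h3 : (l ^ p ^ k).1 ∈ T := by rw [h2]; exact T.one_mem
  exact mem_NN.2 ⟨h3, (FMap_autFun_iff hP).1 (h1.2.to_E c h3)⟩

theorem finite_GG [Finite S] (c : Cx F E p) (hP : P ≤ T) : Finite (GG c P hP) := by
  have hPf : Finite P := finite_of_le (hP.trans c.TS)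
  have : Finite (MulAut P) := inferInstance
  exact Finite.of_injective (fun l : GG c P hP => ((⟨l.1.1, l.2.2.1⟩ : S), l.1.2)) (fun l l' h => by
    have h1 := congrArg Prod.fst h
    have h2 := congrArg Prod.snd h
    exact Subtype.ext (Prod.ext (congrArg Subtype.val h1) h2))

/-- well placed subgroups -/
def WP (c : Cx F E p) [Finite S] (M : Subgroup Ω) (hM : M ≤ T) : Prop :=
  ∀ K : Subgroup (Ω × MulAut M), IsPGroup p K → KK c M ≤ K → K ≤ GG c M hM → K ≤ KK c M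

theorem card_KK_le [Finite S] (c : Cx F E p) : Nat.card (KK c P) ≤ Nat.card T * Nat.card S := by
  have hTf : Finite T := finite_of_le c.TS
  rw [← Nat.card_prod]
  have hch : ∀ l : KK c P, ∃ q : T × S, (l : Ω × MulAut P).1 = q.1 * q.2 ∧
      ∀ x ∈ P, autFun (l : Ω × MulAut P).2 x = q.2 * x * (q.2 : Ω)⁻¹ := by
    rintro ⟨l, t, ht, n, hn, h1, h2⟩
    exact ⟨(⟨t, ht⟩, ⟨n, hn.1⟩), h1, h2⟩
  choose q hq1 hq2 using hch
  refine Nat.card_le_card_of_injective q fun l l' h => Subtype.ext (Prod.ext ?_ ?_)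
  · rw [hq1 l, hq1 l', h]
  · have h3 : (l : Ω × MulAut P).2 * ((l' : Ω × MulAut P).2)⁻¹ = 1 := by
      refine eq_one_of_autFun fun x hx => ?_
      have h4 := hq2 l' _ (autFun_mem ((l' : Ω × MulAut P).2)⁻¹ hx)
      rw [autFun_apply_inv _ hx] at h4
      rw [autFun_mul _ _ hx, hq2 l _ (autFun_mem _ hx), h]
      exact h4.symm
    exact mul_inv_eq_one.1 h3

theorem autFun_autEquiv (h : FIso F P Q f) (α : MulAut P) {x : Ω} (hx : x ∈ P) :
    autFun (h.autEquiv α) (f x) = f (autFun α x) := by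
  rw [autFun_of_mem _ (h.mem hx), autFun_of_mem _ hx]
  exact h.autEquiv_coe α ⟨x, hx⟩

noncomputable def trk (h : FIso F P Q f) : Ω × MulAut P →* Ω × MulAut Q :=
  MonoidHom.prodMap (MonoidHom.id Ω) h.autEquiv.toMonoidHom

theorem trk_inj (h : FIso F P Q f) : Function.Injective (trk h) := by
  intro l l' hl
  have h1 : (trk h l).1 = (trk h l').1 := congrArg Prod.fst hl
  have h2 : (trk h l).2 = (trk h l').2 := congrArg Prod.snd hl
  exact Prod.ext h1 (h.autEquiv.injective h2)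

theorem trk_GG [Finite S] (c : Cx F E p) (hP : P ≤ T) (hQ : Q ≤ T) (h : FIso F P Q f) (he : FMap E P f)
    {l : Ω × MulAut P} (hl : l ∈ GG c P hP) : trk h l ∈ GG c Q hQ := by
  have h2 : h.autEquiv l.2 ∈ F.autGroup Q := by
    rw [← h.map_autGroup]; exact ⟨_, hl.1, rfl⟩
  refine ⟨h2, ?_⟩
  obtain ⟨f', hf', e1, e2⟩ := h.symm
  have he' : FIso E P Q f := ⟨he, h.2⟩
  have t1 : TM S E (1 : Ω)⁻¹ Q f' := (TM.of_E he).inv c h e1
  have t2 := (t1.comp c hl.2 (fun x hx => hf'.mem hx)).comp c (TM.of_E he) (fun x hx => autFun_mem _ (hf'.mem hx))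
  have e3 : 1 * (l.1 * (1 : Ω)⁻¹) = (trk h l).1 := by
    show 1 * (l.1 * (1 : Ω)⁻¹) = l.1
    group
  rw [e3] at t2
  refine t2.congr fun x hx => ?_
  obtain ⟨y, hy, rfl⟩ := h.mem_iff.1 hx
  show f (autFun l.2 (f' (f y))) = autFun (h.autEquiv l.2) (f y)
  rw [e1 y hy, autFun_autEquiv h _ hy]

/-- a `p`-subgroup containing a subgroup of index prime to `p` -/
theorem le_of_sylow_le {G : Type*} [Group G] [Fact p.Prime] {K K' A : Subgroup G} [Finite A] (h1 : K ≤ K') (h2 : K' ≤ A)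
    (hK' : IsPGroup p K') (hi : ¬ p ∣ K.relIndex A) : K' ≤ K := by
  have hf : Finite K' := Finite.of_injective (Subgroup.inclusion h2) (Subgroup.inclusion_injective h2)
  have h3 : K.relIndex K' ∣ K.relIndex A := by
    rw [← Subgroup.relIndex_mul_relIndex K K' A h1 h2]
    exact Dvd.intro _ rfl
  obtain ⟨n, hn⟩ := hK'.exists_card_eq
  have h4 : K.relIndex K' ∣ p ^ n := by rw [← hn]; exact Subgroup.index_dvd_card _
  obtain ⟨m, -, hm⟩ := (Nat.dvd_prime_pow (Fact.out : p.Prime)).1 h4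
  rcases Nat.eq_zero_or_pos m with h5 | h5
  · rw [h5, pow_zero] at hm
    exact Subgroup.relIndex_eq_one.1 hm
  · exfalso
    refine hi (Dvd.dvd.trans ?_ h3)
    rw [hm]; exact dvd_pow_self p h5.ne'

theorem WP_top [Finite S] [Fact p.Prime] (c : Cx F E p) : WP c T le_rfl := by
  intro K hKp hK1 hK2 l hl
  have hTS := c.TS
  have hTf : Finite T := finite_of_le hTS
  have hN : ∀ s ∈ S, s ∈ normalizerIn S T := fun s hs => ⟨hs, normalizes_of_stronglyClosed c.hT hs⟩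
  let K₁ : Subgroup (MulAut T) := K.comap (MonoidHom.inr Ω (MulAut T))
  have hK₁p : IsPGroup p K₁ := by
    refine hKp.comap_of_injective (MonoidHom.inr Ω (MulAut T)) ?_
    intro x y hxy
    exact congrArg Prod.snd hxy
  have hK₁E : K₁ ≤ E.autGroup T := by
    intro α hα
    have h1 := hK2 (show ((1 : Ω), α) ∈ K from hα)
    exact (FMap_autFun_iff le_rfl).1 (h1.2.to_E c T.one_mem)
  have h1 : autInducedBy T T ≤ K₁ := by
    intro α hα
    obtain ⟨t, ht, h⟩ := mem_autInducedBy_iff.1 hα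
    refine hK1 ⟨t⁻¹, T.inv_mem ht, t, hN t (hTS ht), ?_, fun x hx => ?_⟩
    · show (1 : Ω) = t⁻¹ * t
      group
    · show autFun α x = t * x * t⁻¹
      rw [autFun_of_mem _ hx]; exact h ⟨x, hx⟩
  have hfa := fullyAutomized_of_fullyNormalized c.hTp c.hEs (isFullyNormalized_top E)
  have h2 := le_of_sylow_le h1 hK₁E hK₁p ((isFullyAutomized_iff c.hTp).1 hfa).2
  have hy : l.1 ∈ S := (hK2 hl).2.1
  have hyN := hN _ hy
  let cy : MulAut T := conjAut T l.1 hyN.2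
  have h3 : (l.1, cy) ∈ K := hK1 ⟨1, T.one_mem, l.1, hyN, by show l.1 = 1 * l.1; group, fun x hx => by
    show autFun cy x = _
    rw [autFun_of_mem _ hx]; rfl⟩
  have h4 : cy⁻¹ * l.2 ∈ K₁ := by
    have h5 := K.mul_mem (K.inv_mem h3) hl
    have e : (l.1, cy)⁻¹ * l = ((1 : Ω), cy⁻¹ * l.2) := Prod.ext (inv_mul_cancel _) rfl
    rw [e] at h5
    exact h5
  obtain ⟨t, ht, h5⟩ := mem_autInducedBy_iff.1 (h2 h4)
  refine ⟨l.1 * t⁻¹ * l.1⁻¹, c.norm hy (T.inv_mem ht), l.1 * t, hN _ (S.mul_mem hy (hTS ht)), by group, fun x hx => ?_⟩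
  have h6 : autFun (cy⁻¹ * l.2) x = t * x * t⁻¹ := by rw [autFun_of_mem _ hx]; exact h5 ⟨x, hx⟩
  have h7 : autFun l.2 x = autFun cy (autFun (cy⁻¹ * l.2) x) := by
    rw [← autFun_mul _ _ hx, mul_inv_cancel_left]
  have h8 : t * x * t⁻¹ ∈ T := T.mul_mem (T.mul_mem ht hx) (T.inv_mem ht)
  rw [h7, h6, autFun_of_mem _ h8]
  show l.1 * (t * x * t⁻¹) * l.1⁻¹ = _
  group

theorem exists_max_of_bounded {α : Type*} (Pr : α → Prop) (f : α → ℕ) (N : ℕ) (hb : ∀ a, Pr a → f a ≤ N) {a₀ : α}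
    (h0 : Pr a₀) : ∃ a, Pr a ∧ ∀ b, Pr b → f b ≤ f a := by
  classical
  let s : ℕ → Prop := fun n => ∃ a, Pr a ∧ f a = n
  have hs : ∃ n, s n := ⟨_, a₀, h0, rfl⟩
  have hN : s (f a₀) := ⟨a₀, h0, rfl⟩
  have h1 := Nat.findGreatest_spec (P := s) (hb a₀ h0) hN
  obtain ⟨a, ha, h2⟩ := h1
  refine ⟨a, ha, fun b hb' => ?_⟩
  rw [h2]
  exact Nat.le_findGreatest (hb b hb') ⟨b, hb', rfl⟩

theorem exists_WP [Finite S] [Fact p.Prime] (c : Cx F E p) : ∀ (n : ℕ) (P : Subgroup Ω), TC F T P →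
    Nat.card T - Nat.card P = n → ∃ (M : Subgroup Ω) (hM : M ≤ T) (μ : Ω → Ω), FIso E P M μ ∧ WP c M hM := by
  intro n
  induction n using Nat.strong_induction_on with
  | _ n ih =>
  intro P hP hn
  have hTS := c.TS
  have hTf : Finite T := finite_of_le hTS
  rcases hP.1.eq_or_lt with h | hlt
  · subst h
    exact ⟨P, le_rfl, fun x => x, FIso.refl E le_rfl, WP_top c⟩
  obtain ⟨M, ⟨μ, hμ⟩, hmax⟩ := exists_max_of_bounded (fun M : Subgroup Ω => ∃ μ, FIso E P M μ) (fun M => Nat.card (KK c M))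
    (Nat.card T * Nat.card S) (fun M _ => card_KK_le c) ⟨fun x => x, FIso.refl E hP.1⟩
  have hMT : M ≤ T := hμ.le_right
  refine ⟨M, hMT, μ, hμ, ?_⟩
  intro K hKp hK1 hK2
  by_contra hcon
  have hMtc : TC F T M := hP.conj c.hT (sub_fiso c.hE.sub hμ).isConj
  have hMc : E.IsCentric M := hMtc.centric c.hE.sub
  have hMlt : M < T := by
    refine lt_of_le_of_ne hMT fun h => ?_
    have h1 := hμ.card_eq
    rw [h] at h1
    exact hlt.ne (Subgroup.eq_of_le_of_card_ge hP.1 h1.ge)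
  have hfin := finite_GG c hMT
  have hKf : Finite K := Finite.of_injective (Subgroup.inclusion hK2) (Subgroup.inclusion_injective hK2)
  have hKK : KK c M < K := lt_of_le_not_ge hK1 hcon
  have hK'lt := lt_normalizerIn hKp le_rfl hKK
  set K' : Subgroup (Ω × MulAut M) := normalizerIn K (KK c M) with hK'
  have hK'K : K' ≤ K := normalizerIn_le _ _
  -- the normalizer in `T`
  set R : Subgroup Ω := normalizerIn T M with hR
  have hRT : R ≤ T := normalizerIn_le _ _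
  have hMR : M ≤ R := le_normalizerIn hMT
  have hMltR : M < R := lt_normalizerIn c.hTp le_rfl hMlt
  have hRf : Finite R := finite_of_le (hRT.trans hTS)
  have hMf : Finite M := finite_of_le (hMT.trans hTS)
  have hRtc : TC F T R := hMtc.mono c.hT hMR hRT
  have hcard : Nat.card T - Nat.card R < n := by
    have h1 : Nat.card M < Nat.card R := card_lt hMltR
    have h2 := hμ.card_eq
    have h3 : Nat.card R ≤ Nat.card T := Nat.card_le_card_of_injective _ (Subgroup.inclusion_injective hRT)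
    omega
  obtain ⟨M₁, hM₁, μ₀, hμ₀, hW⟩ := ih _ hcard R hRtc rfl
  have hμ₀F : FIso F R M₁ μ₀ := sub_fiso c.hE.sub hμ₀
  -- extensions to `R`
  have hext : ∀ l ∈ K', ∃ l' ∈ GG c R hRT, l'.1 = l.1 ∧ ∀ x ∈ M, autFun l'.2 x = autFun l.2 x := by
    intro l hl
    have hlG := hK2 (hK'K hl)
    obtain ⟨hyS, e, he, he'⟩ := hlG.2
    have hlN : ∀ k ∈ KK c M, l * k * l⁻¹ ∈ KK c M := fun k hk => (Subgroup.mem_normalizer_iff.1 hl.2 k).1 hk
    -- conjugation by elements of `R`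
    have h1 : ∀ r ∈ R, ∃ r' ∈ R, ∀ x ∈ M, autFun l.2 (r * x * r⁻¹) = r' * autFun l.2 x * r'⁻¹ := by
      intro r hr
      have hrn : r ∈ normalizerIn S M := ⟨hTS hr.1, hr.2⟩
      have h2 : ((1 : Ω), conjAut M r hr.2) ∈ KK c M := ⟨r⁻¹, T.inv_mem hr.1, r, hrn, by show (1 : Ω) = r⁻¹ * r; group,
        fun x hx => by show autFun (conjAut M r hr.2) x = _; rw [autFun_of_mem _ hx]; rfl⟩
      obtain ⟨t, ht, m, hm, h3, h4⟩ := hlN _ h2
      have h5 : l.1 * 1 * l.1⁻¹ = t * m := h3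
      have h6 : m = t⁻¹ := by
        have : t * m = 1 := by rw [← h5]; group
        exact (inv_eq_of_mul_eq_one_right this).symm
      refine ⟨m, ⟨h6 ▸ T.inv_mem ht, hm.2⟩, fun x hx => ?_⟩
      have h7 := h4 _ (autFun_mem l.2 hx)
      have h8 : autFun (l * ((1 : Ω), conjAut M r hr.2) * l⁻¹).2 (autFun l.2 x) = autFun l.2 (r * x * r⁻¹) := by
        show autFun (l.2 * conjAut M r hr.2 * l.2⁻¹) (autFun l.2 x) = _
        have hx' := autFun_mem l.2 hx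
        rw [autFun_mul _ _ hx', autFun_inv_apply _ hx, autFun_mul _ _ hx, autFun_of_mem (conjAut M r hr.2) hx]
        rfl
      rw [h8] at h7
      exact h7
    obtain ⟨M'', he''⟩ := he.exists_iso
    have hM''c : E.IsCentric M'' := isCentric_of_isConj hMc he''.isConj
    have hM''r : E.IsReceptive M'' := receptive_of_centric c.hTp c.hEs hM''c
    have heval : ∀ x ∈ M, e x = l.1⁻¹ * autFun l.2 x * l.1 := fun x hx => by rw [he' x hx]; group
    obtain ⟨ê, hê, hê'⟩ := (isReceptive_iff.1 hM''r).2 M e he'' R hMR hRT (fun r hr => by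
      obtain ⟨r', hr', h2⟩ := h1 r hr
      refine ⟨hr.2, l.1⁻¹ * r' * l.1, c.norm' hyS hr'.1, fun x hx => ?_⟩
      rw [heval _ ((Subgroup.mem_normalizer_iff.1 hr.2 x).1 hx), h2 x hx, heval x hx]
      group)
    -- the images
    have hêR : ∀ r ∈ R, l.1 * ê r * l.1⁻¹ ∈ R := by
      intro r hr
      obtain ⟨r', hr', h2⟩ := h1 r hr
      have hM''cen := (centric_iff_tc c.hE).1 hM''c
      have h3 : (l.1⁻¹ * r' * l.1)⁻¹ * ê r ∈ M'' := by
        refine hM''cen.cent c.hT ⟨T.mul_mem (T.inv_mem (c.norm' hyS hr'.1)) (hê.map_mem hr), ?_⟩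
        refine mem_centralizer_iff'.2 fun z hz => ?_
        obtain ⟨x, hx, rfl⟩ := he''.mem_iff.1 hz
        have hx' : r * x * r⁻¹ ∈ M := (Subgroup.mem_normalizer_iff.1 hr.2 x).1 hx
        have h4 : ê r * e x * (ê r)⁻¹ = e (r * x * r⁻¹) := by
          rw [← hê' x hx, ← hê' _ hx', hê.map_conj hr (hMR hx)]
        calc (l.1⁻¹ * r' * l.1)⁻¹ * ê r * e x * ((l.1⁻¹ * r' * l.1)⁻¹ * ê r)⁻¹ =
              (l.1⁻¹ * r' * l.1)⁻¹ * (ê r * e x * (ê r)⁻¹) * (l.1⁻¹ * r' * l.1) := by group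
          _ = e x := by rw [h4, heval _ hx', h2 x hx, heval x hx]; group
      obtain ⟨x, hx, h4⟩ := he''.mem_iff.1 h3
      have h5 : l.1 * ê r * l.1⁻¹ = r' * autFun l.2 x := by
        have : ê r = (l.1⁻¹ * r' * l.1) * e x := by rw [h4]; group
        rw [this, heval x hx]; group
      rw [h5]
      exact R.mul_mem hr' (hMR (autFun_mem _ hx))
    have hθ : FMap F R (fun r => l.1 * ê r * l.1⁻¹) :=
      (sub_fmap c.hE.sub hê).comp (fmap_conj F le_rfl hyS) (fun x hx => hTS (hê.map_mem hx))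
    obtain ⟨α, hα, hα'⟩ := exists_aut_of_fmap hθ hêR
    have hα'' : ∀ x ∈ R, autFun α x = l.1 * ê x * l.1⁻¹ := fun x hx => by rw [autFun_of_mem _ hx]; exact hα' ⟨x, hx⟩
    refine ⟨(l.1, α), ⟨hα, hyS, ê, hê, hα''⟩, rfl, fun x hx => ?_⟩
    show autFun α x = _
    rw [hα'' x (hMR hx), hê' x hx, he' x hx]
  let K₂ : Subgroup (Ω × MulAut R) :=
    { carrier := {l' | l' ∈ GG c R hRT ∧ ∃ l ∈ K', l'.1 = l.1 ∧ ∀ x ∈ M, autFun l'.2 x = autFun l.2 x}
      one_mem' := ⟨Subgroup.one_mem _, 1, Subgroup.one_mem _, rfl, fun x hx => by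
        show autFun (1 : MulAut R) x = autFun (1 : MulAut M) x
        rw [autFun_one hx, autFun_one (hMR hx)]⟩
      mul_mem' := by
        rintro l l' ⟨h1, k, hk, h2, h3⟩ ⟨h4, k', hk', h5, h6⟩
        refine ⟨Subgroup.mul_mem _ h1 h4, k * k', Subgroup.mul_mem _ hk hk', ?_, fun x hx => ?_⟩
        · show l.1 * l'.1 = k.1 * k'.1
          rw [h2, h5]
        · show autFun (l.2 * l'.2) x = autFun (k.2 * k'.2) x
          rw [autFun_mul _ _ (hMR hx), autFun_mul _ _ hx, h6 x hx, h3 _ (autFun_mem _ hx)]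
      inv_mem' := by
        rintro l ⟨h1, k, hk, h2, h3⟩
        refine ⟨Subgroup.inv_mem _ h1, k⁻¹, Subgroup.inv_mem _ hk, ?_, fun x hx => ?_⟩
        · show l.1⁻¹ = k.1⁻¹
          rw [h2]
        · show autFun l.2⁻¹ x = autFun k.2⁻¹ x
          have h4 := h3 _ (autFun_mem k.2⁻¹ hx)
          rw [autFun_apply_inv _ hx] at h4
          rw [← h4, autFun_inv_apply _ (hMR (autFun_mem _ hx)), h4] }
  have hK₂G : K₂ ≤ GG c R hRT := fun l hl => hl.1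
  have hpow : ∀ (A : Subgroup Ω) (α : MulAut A) (j : ℕ) (x : Ω), x ∈ A → autFun (α ^ j) x = (autFun α)^[j] x :=
    fun A α j x hx => autFun_pow_apply' α j hx
  have hK₂p : IsPGroup p K₂ := by
    rintro ⟨l', hl', l, hl, h1, h2⟩
    obtain ⟨k, hk⟩ := hKp ⟨l, hK'K hl⟩
    have hk' : l ^ p ^ k = 1 := by simpa using congrArg Subtype.val hk
    have hk1 : l.1 ^ p ^ k = 1 := congrArg Prod.fst hk'
    have hk2 : l.2 ^ p ^ k = 1 := congrArg Prod.snd hk'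
    have h3 : ∀ j : ℕ, ∀ x ∈ M, autFun (l'.2 ^ j) x = autFun (l.2 ^ j) x := by
      intro j
      induction j with
      | zero => intro x hx; rw [pow_zero, pow_zero, autFun_one hx, autFun_one (hMR hx)]
      | succ j ih =>
        intro x hx
        rw [pow_succ', pow_succ', autFun_mul _ _ (hMR hx), autFun_mul _ _ hx, ih x hx, h2 _ (autFun_mem _ hx)]
    have h4 : ∀ x ∈ M, autFun (l'.2 ^ p ^ k) x = x := fun x hx => by rw [h3 _ x hx, hk2, autFun_one hx]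
    have h5 : l' ^ p ^ k ∈ GG c R hRT := Subgroup.pow_mem _ hl' _
    have h6 : (l' ^ p ^ k).1 = 1 := by
      show l'.1 ^ p ^ k = 1
      rw [h1]; exact hk1
    have h7 : FMap E R (autFun (l'.2 ^ p ^ k)) := h5.2.to_E c (by rw [h6]; exact T.one_mem)
    obtain ⟨z, hz, hzc, h8⟩ := agree_centric c.hTp c.hEs hMc hMR (f := fun x => x) (fmap_id E hRT) h7
      (fun x hx => (h4 x hx).symm) 
    obtain ⟨j, hj⟩ := c.hTp ⟨z, hMT hz⟩
    have hj' : z ^ p ^ j = 1 := by simpa using congrArg Subtype.val hj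
    refine ⟨k + j, Subtype.ext (Prod.ext ?_ ?_)⟩
    · show l'.1 ^ p ^ (k + j) = 1
      rw [pow_add, pow_mul, h1, hk1, one_pow]
    · show l'.2 ^ p ^ (k + j) = 1
      rw [pow_add, pow_mul]
      refine eq_one_of_autFun fun x hx => ?_
      have h9 : ∀ i : ℕ, autFun ((l'.2 ^ p ^ k) ^ i) x = z ^ i * x * (z ^ i)⁻¹ := by
        intro i
        induction i with
        | zero => rw [pow_zero, pow_zero, autFun_one hx]; group
        | succ i ih => rw [pow_succ', autFun_mul _ _ hx, h8 _ (autFun_mem _ hx), ih, pow_succ']; group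
      rw [h9, hj']; group
  -- move to `M₁`
  have hKf₁ := finite_GG c hM₁
  obtain ⟨K₃, hK₃G, hK₃p, hK₃1, -, ⟨a, ha, ha'⟩⟩ := exists_sylow_pair (p := p) (GG c M₁ hM₁) (NN E M₁) (KK c M₁) (K₂.map (trk hμ₀F))
    (GG_norm_NN c hM₁) (GG_pow c hM₁) (KK_le_GG c hM₁) (isPGroup_KK c) (by
      rintro _ ⟨l, hl, rfl⟩
      exact trk_GG c hRT hM₁ hμ₀F hμ₀.1 (hK₂G hl)) (hK₂p.map _)
  have hK₃ := hW K₃ hK₃p hK₃1 hK₃G
  obtain ⟨hat, haE⟩ := mem_NN.1 ha
  have hθ₀ : FIso E M₁ M₁ (autFun a.2) := (fiso_autFun_iff hM₁).2 haE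
  have hμ₁ : FIso E R M₁ (fun x => autFun a.2 (μ₀ x)) := hμ₀.trans hθ₀
  obtain ⟨M₂, hM₂⟩ := (hμ₁.1.restrict hMR).exists_iso
  have hM₂M₁ : M₂ ≤ M₁ := fun y hy => by
    obtain ⟨x, hx, rfl⟩ := hM₂.mem_iff.1 hy
    exact hμ₁.mem (hMR hx)
  have hM₂F : FIso F M M₂ (fun x => autFun a.2 (μ₀ x)) := sub_fiso c.hE.sub hM₂
  have hmem : ∀ l ∈ K', trk hM₂F l ∈ KK c M₂ := by
    intro l hl
    obtain ⟨l', hl', h1, h2⟩ := hext l hl
    have h3 := hK₃ (ha' _ ⟨l', ⟨hl', l, hl, h1, h2⟩, rfl⟩)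
    obtain ⟨t, ht, m, hm, h4, h5⟩ := h3
    have h4' : a.1 * l'.1 * a.1⁻¹ = t * m := h4
    have h6 : ∀ x ∈ R, autFun a.2 (μ₀ (autFun l'.2 x)) = m * autFun a.2 (μ₀ x) * m⁻¹ := by
      intro x hx
      have h7 := h5 _ (hμ₁.mem hx)
      rw [← h7]
      show _ = autFun (a.2 * hμ₀F.autEquiv l'.2 * a.2⁻¹) (autFun a.2 (μ₀ x))
      have hx1 := hμ₀F.mem hx
      rw [autFun_mul _ _ (autFun_mem _ hx1), autFun_inv_apply _ hx1, autFun_mul _ _ hx1, autFun_autEquiv _ _ hx]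
    have h7 : ∀ x ∈ M, autFun a.2 (μ₀ (autFun l.2 x)) = m * autFun a.2 (μ₀ x) * m⁻¹ := fun x hx => by
      rw [← h6 x (hMR hx), h2 x hx]
    have hm2 : m ∈ Subgroup.normalizer (M₂ : Set Ω) := by
      have h8 : ∀ z ∈ M₂, m * z * m⁻¹ ∈ M₂ := fun z hz => by
        obtain ⟨x, hx, rfl⟩ := hM₂.mem_iff.1 hz
        show m * autFun a.2 (μ₀ x) * m⁻¹ ∈ M₂
        rw [← h7 x hx]
        exact hM₂.mem (autFun_mem _ hx)
      have hM₂f : Finite M₂ := finite_of_le (hM₂F.le_right)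
      exact Subgroup.mem_normalizer_fintype h8
    refine ⟨a.1⁻¹ * t * (m * a.1 * m⁻¹), T.mul_mem (T.mul_mem (T.inv_mem hat) ht) (c.norm hm.1 hat), m, ⟨hm.1, hm2⟩, ?_, ?_⟩
    · show l.1 = _
      rw [← h1]
      have : l'.1 = a.1⁻¹ * (t * m) * a.1 := by rw [← h4']; group
      rw [this]; group
    · intro z hz
      obtain ⟨x, hx, rfl⟩ := hM₂.mem_iff.1 hz
      show autFun (hM₂F.autEquiv l.2) (autFun a.2 (μ₀ x)) = m * autFun a.2 (μ₀ x) * m⁻¹
      have h8 := autFun_autEquiv hM₂F l.2 hx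
      rw [h8]; exact h7 x hx
  have hK'f : Finite K' := Finite.of_injective (Subgroup.inclusion hK'K) (Subgroup.inclusion_injective hK'K)
  have hM₂T : M₂ ≤ T := hM₂M₁.trans hM₁
  have hKKf : Finite (KK c M₂) := by
    have := finite_GG c hM₂T
    exact Finite.of_injective (Subgroup.inclusion (KK_le_GG c hM₂T)) (Subgroup.inclusion_injective _)
  have hle1 : Nat.card K' ≤ Nat.card (KK c M₂) :=
    Nat.card_le_card_of_injective (fun l : K' => (⟨trk hM₂F l.1, hmem l.1 l.2⟩ : KK c M₂)) (fun l l' h =>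
      Subtype.ext (trk_inj hM₂F (congrArg Subtype.val h)))
  have hle2 := hmax M₂ ⟨_, hμ.trans hM₂⟩
  have hlt2 : Nat.card (KK c M) < Nat.card K' := card_lt hK'lt
  exact absurd (hlt2.trans_le hle1) (not_lt.2 hle2)

/-- tracked maps into well placed subgroups -/
theorem WP.exists_map [Finite S] [Fact p.Prime] {c : Cx F E p} {hM : M ≤ T} (hW : WP c M hM) {e : Ω → Ω} (he : FIso E P M e) :
    ∃ μ, FIso E P M μ ∧ ∀ y ∈ normalizerIn S P, ∃ t ∈ T, ∀ x ∈ P, μ (y * x * y⁻¹) = (t * y) * μ x * (t * y)⁻¹ := by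
  have hPT : P ≤ T := he.le_left
  have heF : FIso F P M e := sub_fiso c.hE.sub he
  have hf := finite_GG c hM
  obtain ⟨K, hKG, hKp, hK1, -, ⟨a, ha, ha'⟩⟩ := exists_sylow_pair (p := p) (GG c M hM) (NN E M) (KK c M)
    ((KK c P).map (trk heF)) (GG_norm_NN c hM) (GG_pow c hM) (KK_le_GG c hM) (isPGroup_KK c) (by
      rintro _ ⟨l, hl, rfl⟩
      exact trk_GG c hPT hM heF he.1 (KK_le_GG c hPT hl)) ((isPGroup_KK c).map _)
  have hK := hW K hKp hK1 hKG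
  obtain ⟨hat, haE⟩ := mem_NN.1 ha
  have hθ₀ : FIso E M M (autFun a.2) := (fiso_autFun_iff hM).2 haE
  refine ⟨fun x => autFun a.2 (e x), he.trans hθ₀, fun y hy => ?_⟩
  have h1 : (y, conjAut P y hy.2) ∈ KK c P := ⟨1, T.one_mem, y, hy, by show y = 1 * y; group, fun x hx => by
    show autFun (conjAut P y hy.2) x = _; rw [autFun_of_mem _ hx]; rfl⟩
  obtain ⟨t, ht, m, hm, h4, h5⟩ := hK (ha' _ ⟨_, h1, rfl⟩)
  have h4' : a.1 * y * a.1⁻¹ = t * m := h4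
  have hyS : y ∈ S := hy.1
  -- `m = t' y`
  have hmy : m * y⁻¹ ∈ T := by
    have e1 : m * y⁻¹ = t⁻¹ * a.1 * (y * a.1⁻¹ * y⁻¹) := by
      have : m = t⁻¹ * (a.1 * y * a.1⁻¹) := by rw [h4']; group
      rw [this]; group
    rw [e1]
    exact T.mul_mem (T.mul_mem (T.inv_mem ht) hat) (c.norm hyS (T.inv_mem hat))
  refine ⟨m * y⁻¹, hmy, fun x hx => ?_⟩
  have e2 : m * y⁻¹ * y = m := by group
  rw [e2]
  have h7 := h5 _ (autFun_mem a.2 (he.mem hx))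
  show autFun a.2 (e (y * x * y⁻¹)) = m * autFun a.2 (e x) * m⁻¹
  rw [← h7]
  show _ = autFun (a.2 * heF.autEquiv (conjAut P y hy.2) * a.2⁻¹) (autFun a.2 (e x))
  have hx1 := he.mem hx
  rw [autFun_mul _ _ (autFun_mem _ hx1), autFun_inv_apply _ hx1, autFun_mul _ _ hx1, autFun_autEquiv _ _ hx,
    autFun_of_mem (conjAut P y hy.2) hx]
  rfl

theorem WP.exists_norm [Finite S] [Fact p.Prime] {c : Cx F E p} {hM : M ≤ T} (hW : WP c M hM) (hy : TM S E y M θ)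
    (hθ : FIso F M M θ) : ∃ n ∈ normalizerIn S M, n * y⁻¹ ∈ T := by
  have hf := finite_GG c hM
  obtain ⟨K, hKG, hKp, hK1, hdec, -⟩ := exists_sylow_pair (p := p) (GG c M hM) (NN E M) (KK c M)
    (KK c M) (GG_norm_NN c hM) (GG_pow c hM) (KK_le_GG c hM) (isPGroup_KK c) (KK_le_GG c hM) (isPGroup_KK c)
  have hK := hW K hKp hK1 hKG
  have hmem : (y, (hθ.equiv : MulAut M)) ∈ GG c M hM := by
    refine ⟨hθ.equiv_mem_autGroup, hy.congr fun x hx => ?_⟩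
    show θ x = autFun (hθ.equiv : MulAut M) x
    rw [autFun_of_mem _ hx]; rfl
  obtain ⟨k, hk, n, hn, h1⟩ := hdec _ hmem
  obtain ⟨t, ht, m, hm, h2, -⟩ := hK hk
  obtain ⟨hnt, -⟩ := mem_NN.1 hn
  have h3 : y = k.1 * n.1 := congrArg Prod.fst h1
  refine ⟨m, hm, ?_⟩
  have e : m * y⁻¹ = (m * n.1⁻¹ * m⁻¹) * t⁻¹ := by rw [h3, h2]; group
  rw [e]
  exact T.mul_mem (c.norm hm.1 (T.inv_mem hnt)) (T.inv_mem ht)

end Cfsg.Agent.Lib.FusionES
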