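import Cfsg.Agent.Lib.FusionES4

/-!
Extension and uniqueness of the generated maps.
-/

set_option autoImplicit false
set_option linter.unusedSectionVars false

universe u

open Cfsg Cfsg.FusionSystem Cfsg.Agent.Lib.FusionBasic Cfsg.Agent.Lib.FusionSat Cfsg.Agent.Lib.FusionNormal
  Cfsg.Agent.Lib.FusionInvar Cfsg.Agent.Lib.FusionTools Cfsg.Agent.Lib.FusionPP Cfsg.Agent.Lib.FusionStrong
  Cfsg.Agent.Lib.FusionSys Cfsg.Agent.Lib.FusionFrat Cfsg.Agent.Lib.FusionPrime Cfsg.Agent.Lib.FusionTC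
  Cfsg.Agent.Lib.FusionClosed Cfsg.Agent.Lib.FusionStab Cfsg.Agent.Lib.FusionZeta
  Cfsg.Agent.Lib.FusionGroup Cfsg.Agent.Lib.FusionModel Cfsg.Agent.Lib.FusionRealized

namespace Cfsg.Agent.Lib.FusionES

variable {Ω : Type u} [Group Ω] {S T : Subgroup Ω} {F : FusionSystem S} {E : FusionSystem T}
  {P Q R U M M' X Y Z P₀ : Subgroup Ω} {a b f g ψ θ θ' μ : Ω → Ω} {p : ℕ} {y y' t : Ω}

/-- compatibility of a map with the conjugations -/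
def CC (T V P : Subgroup Ω) (μ : Ω → Ω) : Prop :=
  ∀ y ∈ V, ∃ t ∈ T, ∀ x ∈ P, μ (y * x * y⁻¹) = (t * y) * μ x * (t * y)⁻¹

theorem ext_C [Finite S] [Fact p.Prime] (c : Cx F E p) (hP : TC F T P) (hμ : FIso E P M μ)
    (hC : CC T (normalizerIn S P) P μ) : ∃ μ₁, FMap E (normalizerIn T P) μ₁ ∧ (∀ x ∈ P, μ₁ x = μ x) ∧
      (∀ x ∈ normalizerIn T P, μ₁ x ∈ normalizerIn T M) ∧ CC T (normalizerIn S P) (normalizerIn T P) μ₁ := by
  have hPT := hP.1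
  have hTS := c.TS
  have hTf : Finite T := finite_of_le hTS
  have hPR : P ≤ normalizerIn T P := le_normalizerIn hPT
  have hRT : normalizerIn T P ≤ T := normalizerIn_le T P
  have hPc : E.IsCentric P := hP.centric c.hE.sub
  have hMr : E.IsReceptive M := receptive_of_centric c.hTp c.hEs (isCentric_of_isConj hPc hμ.isConj)
  obtain ⟨μ₁, hμ₁, h1⟩ := (isReceptive_iff.1 hMr).2 P μ hμ _ hPR hRT (fun y hy => by
    obtain ⟨t, ht, h⟩ := hC y ⟨hTS hy.1, hy.2⟩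
    exact ⟨hy.2, t * y, T.mul_mem ht hy.1, h⟩)
  refine ⟨μ₁, hμ₁, h1, fun x hx => ⟨hμ₁.map_mem hx, ?_⟩, fun y hy => ?_⟩
  · have h2 : FIso E P M μ₁ := hμ.congr fun x hx => (h1 x hx).symm
    exact h2.map_normalizer hμ₁ hPR hx hx.2
  · obtain ⟨t, ht, h⟩ := hC y hy
    have hyS := hy.1
    have hyR : ∀ x ∈ normalizerIn T P, y * x * y⁻¹ ∈ normalizerIn T P := fun x hx =>
      ⟨c.norm hyS hx.1, Subgroup.mul_mem _ (Subgroup.mul_mem _ hy.2 hx.2) (Subgroup.inv_mem _ hy.2)⟩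
    have hty : t * y ∈ S := S.mul_mem (hTS ht) hyS
    have t1 : TM S E y (normalizerIn T P) (fun x => y * x * y⁻¹) := TM.conj c hRT hyS
    have t2 := t1.comp c (TM.of_E hμ₁) hyR
    have t3 := t2.comp c (TM.conj c le_rfl (S.inv_mem hty)) (fun x hx => hμ₁.map_mem (hyR x hx))
    have e : (t * y)⁻¹ * (1 * y) = y⁻¹ * t⁻¹ * y := by group
    have h2 := t3.to_E c (by rw [e]; exact c.norm' hyS (T.inv_mem ht))
    obtain ⟨z, hz, -, h3⟩ := agree_centric c.hTp c.hEs hPc hPR hμ₁ h2 (fun x hx => by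
      show μ₁ x = (t * y)⁻¹ * μ₁ (y * x * y⁻¹) * (t * y)⁻¹⁻¹
      have hx' : y * x * y⁻¹ ∈ P := (Subgroup.mem_normalizer_iff.1 hy.2 x).1 hx
      rw [h1 _ hx', h x hx, h1 x hx]; group)
    refine ⟨t * (y * μ₁ z * y⁻¹), T.mul_mem ht (c.norm hyS (hμ₁.map_mem (hPR hz))), fun x hx => ?_⟩
    have h4 : (t * y)⁻¹ * μ₁ (y * x * y⁻¹) * (t * y)⁻¹⁻¹ = μ₁ (z * x * z⁻¹) := h3 x hx
    rw [hμ₁.map_conj (hPR hz) hx] at h4
    calc μ₁ (y * x * y⁻¹) = (t * y) * ((t * y)⁻¹ * μ₁ (y * x * y⁻¹) * (t * y)⁻¹⁻¹) * (t * y)⁻¹ := by group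
      _ = _ := by rw [h4]; group

/-- the local group at a well placed subgroup -/
theorem exists_locT_WP [Finite S] [Fact p.Prime] (c : Cx F E p) (hTC : TC F T M) (hM : M ≤ T) (hW : WP c M hM) :
    ∃ (G : Type u) (_ : Group G) (_ : Finite G) (ι : ↥(normalizerIn S M) →* G) (B : Subgroup G), LocT F E p M ι B := by
  have hTS := c.TS
  have hTf : Finite T := finite_of_le hTS
  obtain ⟨M', α, hM', hαM, hα, hαN⟩ := exists_fullyNormalized_map c.hS c.hF (hM.trans hTS)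
  have hTN : normalizerIn T M ≤ normalizerIn S M := nT_le hTS
  have hαT : ∀ x ∈ normalizerIn T M, α x ∈ normalizerIn T M' := fun x hx =>
    ⟨StronglyClosed.map_mem F c.hT hα (hTN hx) hx.1, (hαN x (hTN hx)).2⟩
  refine exists_locT c hTC hM' hα hαM ?_
  -- cardinalities
  have hcard : Nat.card (normalizerIn T M') ≤ Nat.card (normalizerIn T M) := by
    obtain ⟨a, f₀, ha, hf₀, h1⟩ := c.hE.frattini hM (hαM.1)
    obtain ⟨M₀, hM₀⟩ := hf₀.exists_iso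
    obtain ⟨e, he, -, -⟩ := hM₀.symm
    obtain ⟨μ, hμ, hC⟩ := hW.exists_map he
    have hM₀tc : TC F T M₀ := hTC.conj c.hT (sub_fiso c.hE.sub hM₀).isConj
    obtain ⟨μ₁, hμ₁, -, hμ₁N, -⟩ := ext_C c hM₀tc hμ hC
    have h2 : Nat.card (normalizerIn T M₀) ≤ Nat.card (normalizerIn T M) :=
      hμ₁.card_image_le hμ₁N (normalizerIn_le T M)
    -- `a⁻¹` maps the normalizer of `M'` into the one of `M₀`
    obtain ⟨a', ha', e1, e2⟩ := ha.symm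
    have h3 : FIso F M' M₀ a' := by
      refine ⟨ha'.1.restrict (le_of_fiso c.hT hM hαM), fun z => ?_⟩
      constructor
      · intro hz
        obtain ⟨x, hx, rfl⟩ := hM₀.mem_iff.1 hz
        exact ⟨α x, hαM.mem hx, by rw [h1 x hx, e1 _ (hf₀.map_mem hx)]⟩
      · rintro ⟨x, hx, rfl⟩
        obtain ⟨w, hw, rfl⟩ := hαM.mem_iff.1 hx
        rw [h1 w hw, e1 _ (hf₀.map_mem hw)]
        exact hM₀.mem hw
    have hM'T : M' ≤ T := le_of_fiso c.hT hM hαM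
    have h4 : FMap F (normalizerIn T M') a' := ha'.1.restrict (normalizerIn_le T M')
    have h5 : ∀ x ∈ normalizerIn T M', a' x ∈ normalizerIn T M₀ := fun x hx =>
      ⟨ha'.mem hx.1, h3.map_normalizer h4 (le_normalizerIn hM'T) hx hx.2⟩
    exact (h4.card_image_le h5 ((normalizerIn_le T M₀).trans hTS)).trans h2
  have h6 : FIso F (normalizerIn T M) (normalizerIn T M') α :=
    (hα.restrict hTN).fiso_of_card ((normalizerIn_le T M').trans hTS) hαT hcard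
  intro y hy
  obtain ⟨x, hx, h⟩ := h6.mem_iff.1 hy
  exact ⟨x, hx, h⟩

def A3 (F : FusionSystem S) (E : FusionSystem T) (p : ℕ) (P₀ : Subgroup Ω) : Prop :=
  ∀ (P : Subgroup Ω) (μ : Ω → Ω), P ≤ S → P ⊓ T = P₀ → FMap E P₀ μ → CC T P P₀ μ →
    ∃ Q f, ET F E p P Q f ∧ ∀ x ∈ P₀, f x = μ x

def A4 (c : Cx F E p) [Finite S] (P₀ : Subgroup Ω) : Prop :=
  ∀ (M : Subgroup Ω) (hM : M ≤ T), WP c M hM → (∃ e, FIso E P₀ M e) →
    ∃ Q ψ, ET F E p (normalizerIn S P₀) Q ψ ∧ FIso E P₀ M ψ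

def AU (F : FusionSystem S) (E : FusionSystem T) (p : ℕ) (P₀ : Subgroup Ω) : Prop :=
  ∀ (P Q : Subgroup Ω) (f : Ω → Ω), ET F E p P Q f → P ⊓ T = P₀ → (∀ x ∈ P₀, f x = x) →
    ∃ z ∈ P₀, z ∈ Subgroup.centralizer (P₀ : Set Ω) ∧ ∀ x ∈ P, f x = z * x * z⁻¹

section locT

variable {G : Type u} [Group G] [Finite G] {ι : ↥(normalizerIn S M) →* G} {B : Subgroup G}

/-- an element of `G` inducing `f` on `M` maps `x` to `f x` up to `M` -/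
theorem LocT.near [Finite S] (c : Cx F E p) (h : LocT F E p M ι B) {g : G} (hg : BV ι B T g) {l : Ω → Ω}
    (hl : FIso E M M l) (hgl : ∀ m ∈ M, lift ι (l m) = g * lift ι m * g⁻¹) {x w : Ω} (hx : x ∈ normalizerIn S M)
    (hw : w ∈ normalizerIn S M) (hwx : x * w⁻¹ ∈ T) (hxw : ∀ m ∈ M, l (x * m * x⁻¹) = w * l m * w⁻¹) :
    ∃ z ∈ M, lift ι (z * w) = g * lift ι x * g⁻¹ := by
  have hBn := h.loc.Bn
  have hMN := h.loc.MN c
  have h1 : BV ι B T (g * lift ι x * g⁻¹ * (lift ι w)⁻¹) := by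
    have e : g * lift ι x * g⁻¹ * (lift ι w)⁻¹ = g * (lift ι x * g⁻¹ * (lift ι x)⁻¹) * lift ι (x * w⁻¹) := by
      rw [lift_mul hx (Subgroup.inv_mem _ hw), lift_inv hw]; group
    rw [e]
    exact (hg.mul hBn c.TS ((hg.inv hBn c.TS).conj hBn c.hT hx)).mul hBn c.TS
      (BV.of_T ⟨hwx, Subgroup.mul_mem _ hx.2 (Subgroup.inv_mem _ hw.2)⟩)
  have h2 := h.loc.cen _ h1 (fun m hm => by
    have hm1 : w⁻¹ * m * w ∈ M := by
      have := (Subgroup.mem_normalizer_iff.1 (Subgroup.inv_mem _ hw.2) m).1 hm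
      rwa [inv_inv] at this
    obtain ⟨m₂, hm₂, h3⟩ := hl.mem_iff.1 hm1
    have hm3 : x * m₂ * x⁻¹ ∈ M := (Subgroup.mem_normalizer_iff.1 hx.2 m₂).1 hm₂
    have h4 : l (x * m₂ * x⁻¹) = m := by rw [hxw m₂ hm₂, h3]; group
    have e1 : (lift ι w)⁻¹ * lift ι m * lift ι w = g * lift ι m₂ * g⁻¹ := by
      rw [← hgl m₂ hm₂, h3, lift_mul (Subgroup.mul_mem _ (Subgroup.inv_mem _ hw) (hMN hm)) hw,
        lift_mul (Subgroup.inv_mem _ hw) (hMN hm), lift_inv hw]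
    calc g * lift ι x * g⁻¹ * (lift ι w)⁻¹ * lift ι m * (g * lift ι x * g⁻¹ * (lift ι w)⁻¹)⁻¹ =
          g * lift ι x * g⁻¹ * ((lift ι w)⁻¹ * lift ι m * lift ι w) * (g * lift ι x * g⁻¹)⁻¹ := by group
      _ = g * (lift ι x * lift ι m₂ * (lift ι x)⁻¹) * g⁻¹ := by rw [e1]; group
      _ = lift ι m := by rw [← lift_conj hx (hMN hm₂), ← hgl _ hm3, h4])
  obtain ⟨z, hz, hz'⟩ := (mem_im_iff' hMN).1 h2
  exact ⟨z, hz, by rw [lift_mul (hMN hz) hw, hz']; group⟩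

/-- generated maps preserving `M` are realized -/
theorem LocT.real_of_ET [Finite S] [Fact p.Prime] (c : Cx F E p) (h : LocT F E p M ι B) (hU : AU F E p (P ⊓ T))
    (hf : ET F E p P Q f) (hMP : M ≤ P) (hP : P ≤ normalizerIn S M) (hfM : ∀ x ∈ M, f x ∈ M) :
    ∃ g, BV ι B T g ∧ ∀ x ∈ P, lift ι (f x) = g * lift ι x * g⁻¹ := by
  have hMN := h.loc.MN c
  have hBn := h.loc.Bn
  have hinj := h.loc.inj
  have hTS := c.TS
  have hTf : Finite T := finite_of_le hTS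
  have hMT := h.loc.tc.1
  have hMPT : M ≤ P ⊓ T := le_inf hMP hMT
  have hfi : FIso F M M f := fiso_restrict hf.iso.1 hMP hfM
  have hfE : FIso E M M f := ⟨(hf.inE c).restrict hMPT, hfi.2⟩
  obtain ⟨g, hg, h1⟩ := h.loc.l1 f hfE
  have hfN : ∀ x ∈ P, f x ∈ normalizerIn S M := fun x hx =>
    ⟨hf.iso.1.map_mem hx, hfi.map_normalizer hf.iso.1 hMP hx (hP hx).2⟩
  have hfT : ∀ x ∈ P, x * (f x)⁻¹ ∈ T := fun x hx => by
    have h2 := c.norm (hf.iso.le_left hx) (T.inv_mem (hf.mod c x hx))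
    have e : x * (x⁻¹ * f x)⁻¹ * x⁻¹ = x * (f x)⁻¹ := by group
    rwa [e] at h2
  have hnear : ∀ x ∈ P, ∃ z ∈ M, lift ι (z * f x) = g * lift ι x * g⁻¹ := fun x hx =>
    h.near c hg hfE h1 (hP hx) (hfN x hx) (hfT x hx) (fun m hm => hf.iso.1.map_conj hx (hMP hm))
  -- the map induced by `g`
  have hex : ∃ φ : Ω → Ω, ∀ x ∈ P, (∃ z ∈ M, φ x = z * f x) ∧ lift ι (φ x) = g * lift ι x * g⁻¹ := by
    choose! z hz hz' using hnear
    exact ⟨fun x => z x * f x, fun x hx => ⟨⟨z x, hz x hx, rfl⟩, hz' x hx⟩⟩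
  obtain ⟨φ, hφ⟩ := hex
  have hφN : ∀ x ∈ P, φ x ∈ normalizerIn S M := fun x hx => by
    obtain ⟨⟨z, hz, h2⟩, -⟩ := hφ x hx
    rw [h2]; exact Subgroup.mul_mem _ (hMN hz) (hfN x hx)
  obtain ⟨Q', hQ'⟩ := h.real c hg hMP hP hφN (fun x hx => (hφ x hx).2)
  have hφM : ∀ x ∈ M, φ x = f x := fun x hx => lift_inj hinj (hφN x (hMP hx)) (hfN x (hMP hx)) (by
    rw [(hφ x (hMP hx)).2, h1 x hx])
  have hMQ : M ≤ Q := fun m hm => by
    obtain ⟨x, hx, rfl⟩ := hfi.mem_iff.1 hm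
    exact hf.iso.mem (hMP hx)
  have hQ'Q : Q' = Q := by
    have hQf : Finite Q := finite_of_le hf.iso.le_right
    refine Subgroup.eq_of_le_of_card_ge (fun y hy => ?_) (by rw [← hf.iso.card_eq, ← hQ'.iso.card_eq])
    obtain ⟨x, hx, rfl⟩ := hQ'.iso.mem_iff.1 hy
    obtain ⟨⟨z, hz, h2⟩, -⟩ := hφ x hx
    rw [h2]
    exact Q.mul_mem (hMQ hz) (hf.iso.mem hx)
  rw [hQ'Q] at hQ'
  obtain ⟨φ', hφ', e1, e2⟩ := hQ'.exists_inv c
  have hk : ET F E p P P (fun x => φ' (f x)) := hf.comp hφ'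
  have hkM : ∀ x ∈ M, φ' (f x) = x := fun x hx => by rw [← hφM x hx, e1 x (hMP hx)]
  have hkE := hk.inE c
  have hMc : E.IsCentric M := h.loc.tc.centric c.hE.sub
  have hPTn : P ⊓ T ≤ Subgroup.normalizer (M : Set Ω) := fun x hx => (hP hx.1).2
  obtain ⟨z, hz, hzc, h3⟩ := agree_centric_aux c.hTp c.hEs hMc hMPT hPTn hkE hkM
  -- correct by `z⁻¹`
  have hzP : z ∈ P := hMP hz
  have hPS := hf.iso.le_left
  have hzi : FIso F P P (fun x => z⁻¹ * x * z⁻¹⁻¹) :=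
    fiso_conj_of_normalizer F hPS (S.inv_mem (hPS hzP)) (Subgroup.inv_mem _ (Subgroup.le_normalizer hzP))
  have hk2 : ET F E p P P (fun x => z⁻¹ * φ' (f x) * z⁻¹⁻¹) := hk.comp (ET.conj (T.inv_mem (hMT hz)) hzi)
  obtain ⟨z', hz', hz'c, h4⟩ := hU P P _ hk2 rfl (fun x hx => by
    show z⁻¹ * φ' (f x) * z⁻¹⁻¹ = x
    have h5 : φ' (f x) = z * x * z⁻¹ := h3 x hx
    rw [h5]; group)
  have hz'M : z' ∈ M := h.loc.tc.cent c.hT ⟨hz'.2, mem_centralizer_iff'.2 fun x hx => mem_centralizer_iff'.1 hz'c x (hMPT hx)⟩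
  refine ⟨g * lift ι (z * z'), hg.mul hBn c.TS (BV.of_T ⟨T.mul_mem (hMT hz) (hMT hz'M),
    Subgroup.le_normalizer (M.mul_mem hz hz'M)⟩), fun x hx => ?_⟩
  have h5 : φ' (f x) = (z * z') * x * (z * z')⁻¹ := by
    have h6 : z⁻¹ * φ' (f x) * z⁻¹⁻¹ = z' * x * z'⁻¹ := h4 x hx
    calc φ' (f x) = z * (z⁻¹ * φ' (f x) * z⁻¹⁻¹) * z⁻¹ := by group
      _ = _ := by rw [h6]; group
  have h6 : f x = φ ((z * z') * x * (z * z')⁻¹) := by rw [← h5, e2 _ (hf.iso.mem hx)]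
  have hzz : z * z' ∈ P := P.mul_mem hzP (hMP hz'M)
  have h7 : z * z' * x * (z * z')⁻¹ ∈ P := P.mul_mem (P.mul_mem hzz hx) (P.inv_mem hzz)
  rw [h6, (hφ _ h7).2, lift_conj (hP hzz) (hP hx)]
  group

end locT

/-- a family of generated maps into `M` -/
def Fam4 (F : FusionSystem S) (E : FusionSystem T) (p : ℕ) (M : Subgroup Ω) (Ψ : Subgroup Ω → Ω → Ω) : Prop :=
  ∀ M', (∃ e, FIso E M' M e) → (∃ Q, ET F E p (normalizerIn S M') Q (Ψ M')) ∧ FIso E M' M (Ψ M')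

theorem Fam4.maps [Finite S] (c : Cx F E p) {Ψ : Subgroup Ω → Ω → Ω} (hΨ : Fam4 F E p M Ψ) (he : ∃ e, FIso E M' M e) :
    ∀ x ∈ normalizerIn S M', Ψ M' x ∈ normalizerIn S M := by
  intro x hx
  obtain ⟨⟨Q, hQ⟩, h1⟩ := hΨ M' he
  exact ⟨hQ.iso.1.map_mem hx, (sub_fiso c.hE.sub h1).map_normalizer hQ.iso.1
    (le_normalizerIn (h1.le_left.trans c.TS)) hx hx.2⟩

theorem tc_lt [Finite S] (c : Cx F E p) (hM : TC F T M) (h : M ≤ P ⊓ T) : TC F T (P ⊓ T) := hM.mono c.hT h inf_le_right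

section locT

variable {G : Type u} [Group G] [Finite G] {ι : ↥(normalizerIn S M) →* G} {B : Subgroup G}

theorem LocT.step [Finite S] [Fact p.Prime] (c : Cx F E p) (h : LocT F E p M ι B) {Ψ : Subgroup Ω → Ω → Ω}
    (hΨ : Fam4 F E p M Ψ) (hU : ∀ P₁, TC F T P₁ → Nat.card M < Nat.card P₁ → AU F E p P₁) {M' M'' R R' : Subgroup Ω}
    (hM' : ∃ e, FIso E M' M e) (hf : ET F E p R R' f) (hM'R : M' ≤ R) (hR : R ≤ normalizerIn S M')
    (hfM : FIso F M' M'' f) (hlt : Nat.card M' < Nat.card (R ⊓ T : Subgroup Ω)) :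
    ∃ g, BV ι B T g ∧ ∀ x ∈ R, lift ι (Ψ M'' (f x)) = g * lift ι (Ψ M' x) * g⁻¹ := by
  have hTS := c.TS
  obtain ⟨e, he⟩ := hM'
  have hM'T : M' ≤ T := he.le_left
  have hM'RT : M' ≤ R ⊓ T := le_inf hM'R hM'T
  have hfE : FIso E M' M'' f := ⟨(hf.inE c).restrict hM'RT, hfM.2⟩
  obtain ⟨e', he', -, -⟩ := hfE.symm
  have hM'' : ∃ e, FIso E M'' M e := ⟨_, he'.trans he⟩
  obtain ⟨⟨Q', hQ'⟩, hψ'⟩ := hΨ M' ⟨e, he⟩
  obtain ⟨⟨Q'', hQ''⟩, hψ''⟩ := hΨ M'' hM''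
  have hψ'F := sub_fiso c.hE.sub hψ'
  have hψ''F := sub_fiso c.hE.sub hψ''
  obtain ⟨R₁, hR₁⟩ := hQ'.exists_restrict hR
  obtain ⟨k, hk, k1, k2⟩ := hR₁.exists_inv c
  have hR'N : R' ≤ normalizerIn S M'' := fun y hy => by
    obtain ⟨x, hx, rfl⟩ := hf.iso.mem_iff.1 hy
    exact ⟨hf.iso.1.map_mem hx, hfM.map_normalizer hf.iso.1 hM'R hx (hR hx).2⟩
  obtain ⟨R₂, hR₂⟩ := hQ''.exists_restrict hR'N
  have hcomp := (hk.comp hf).comp hR₂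
  have hMR₁ : M ≤ R₁ := fun m hm => by
    obtain ⟨x, hx, rfl⟩ := hψ'.mem_iff.1 hm
    exact hR₁.iso.mem (hM'R hx)
  have hR₁N : R₁ ≤ normalizerIn S M := fun y hy => by
    obtain ⟨x, hx, rfl⟩ := hR₁.iso.mem_iff.1 hy
    exact hΨ.maps c ⟨e, he⟩ x (hR hx)
  have hcard : Nat.card M < Nat.card (R₁ ⊓ T : Subgroup Ω) := by
    rw [← (fiso_inf c.hT hR₁.iso).card_eq, ← he.card_eq]; exact hlt
  have hAU := hU _ (tc_lt c h.loc.tc (le_inf hMR₁ h.loc.tc.1)) hcard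
  obtain ⟨g, hg, h1⟩ := h.real_of_ET c hAU hcomp hMR₁ hR₁N (fun m hm => by
    obtain ⟨x, hx, rfl⟩ := hψ'.mem_iff.1 hm
    show Ψ M'' (f (k (Ψ M' x))) ∈ M
    rw [k1 x (hM'R hx)]
    exact hψ''.mem (hfM.mem hx))
  refine ⟨g, hg, fun x hx => ?_⟩
  have h2 := h1 _ (hR₁.iso.mem hx)
  have h3 : Ψ M'' (f (k (Ψ M' x))) = Ψ M'' (f x) := by rw [k1 x hx]
  rw [← h3]; exact h2

theorem LocT.chain [Finite S] [Fact p.Prime] (c : Cx F E p) (h : LocT F E p M ι B) {Ψ : Subgroup Ω → Ω → Ω}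
    (hΨ : Fam4 F E p M Ψ) (hU : ∀ P₁, TC F T P₁ → Nat.card M < Nat.card P₁ → AU F E p P₁)
    (hf : ET F E p P Q f) : (∃ e, FIso E (P ⊓ T) M e) →
    ∃ g, BV ι B T g ∧ ∀ x ∈ P, lift ι (Ψ (Q ⊓ T) (f x)) = g * lift ι (Ψ (P ⊓ T) x) * g⁻¹ := by
  have hTS := c.TS
  have hTf : Finite T := finite_of_le hTS
  induction hf with
  | @base U P Q a h1 h2 h3 =>
    intro he
    have hPS := h3.le_left
    have hPN : P ≤ normalizerIn S (P ⊓ T) := normal_inf c hPS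
    have haM : FIso F (P ⊓ T) (Q ⊓ T) a := fiso_inf c.hT h3
    have hle : P ⊓ T ≤ U ⊓ T := inf_le_inf_right _ h2
    rcases hle.eq_or_lt with h4 | h4
    · -- the intersections agree
      have haU : FIso F (U ⊓ T) (U ⊓ T) a := fiso_inf c.hT h1.pp.1
      have hQP : Q ⊓ T = P ⊓ T := by
        ext y
        rw [haM.mem_iff, h4, haU.mem_iff]
      rw [hQP]
      have hUN : U ≤ normalizerIn S (P ⊓ T) := h4 ▸ normal_inf c h1.pp.le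
      obtain ⟨⟨Q', hQ'⟩, hψ⟩ := hΨ _ he
      obtain ⟨U', hU'⟩ := hQ'.exists_restrict hUN
      obtain ⟨k, hk, k1, k2⟩ := hU'.iso.symm
      have h5 := h1.transport c hU'.iso hk k1 k2
      have h6 : U' ⊓ T = M := by
        have h7 := fiso_inf c.hT hU'.iso
        rw [← h4] at h7
        ext y
        rw [h7.mem_iff, hψ.mem_iff]
      obtain ⟨g, hg, h7⟩ := h.loc.l4 U' _ h5 h6
      refine ⟨g, hg, fun x hx => ?_⟩
      have h8 := h7 _ (hU'.iso.mem (h2 hx))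
      have h9 : Ψ (P ⊓ T) (a (k (Ψ (P ⊓ T) x))) = Ψ (P ⊓ T) (a x) := by rw [k1 x (h2 hx)]
      rw [← h9]; exact h8
    · have hRfull : ∀ x ∈ U ⊓ normalizerIn S (P ⊓ T), x ∈ U := fun x hx => hx.1
      have hbase : FMap F (U ⊓ normalizerIn S (P ⊓ T)) a := h1.pp.map.restrict inf_le_left
      obtain ⟨R', hR'⟩ := hbase.exists_iso
      have hET : ET F E p (U ⊓ normalizerIn S (P ⊓ T)) R' a := ET.base h1 inf_le_left hR'
      have hlt : Nat.card (P ⊓ T : Subgroup Ω) < Nat.card (U ⊓ normalizerIn S (P ⊓ T) ⊓ T : Subgroup Ω) := by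
        have h5 := lt_inf_normalizerIn c.hS (inf_le_right.trans hTS : U ⊓ T ≤ S) h4
        have h6 : U ⊓ T ⊓ normalizerIn S (P ⊓ T) ≤ U ⊓ normalizerIn S (P ⊓ T) ⊓ T := fun x hx => ⟨⟨hx.1.1, hx.2⟩, hx.1.2⟩
        have hf : Finite (U ⊓ normalizerIn S (P ⊓ T) ⊓ T : Subgroup Ω) := finite_of_le (inf_le_right.trans hTS)
        exact card_lt (h5.trans_le h6)
      obtain ⟨g, hg, h5⟩ := h.step c hΨ hU he hET (le_inf (inf_le_left.trans h2) (inf_le_left.trans hPN)) inf_le_right haM hlt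
      exact ⟨g, hg, fun x hx => h5 x ⟨h2 hx, hPN hx⟩⟩
  | @conj P Q t h1 h2 =>
    intro he
    have hPS := h2.le_left
    have hPN : P ≤ normalizerIn S (P ⊓ T) := normal_inf c hPS
    have htM : FIso F (P ⊓ T) (Q ⊓ T) (fun x => t * x * t⁻¹) := fiso_inf c.hT h2
    have hle : P ⊓ T ≤ T := inf_le_right
    rcases hle.eq_or_lt with h4 | h4
    · have hQT : Q ⊓ T = P ⊓ T := by
        rw [h4]
        refine le_antisymm inf_le_right fun y hy => ?_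
        refine htM.mem_iff.2 ⟨t⁻¹ * y * t, ?_, by group⟩
        rw [h4]
        exact T.mul_mem (T.mul_mem (T.inv_mem h1) hy) h1
      rw [hQT]
      obtain ⟨⟨Q', hQ'⟩, hψ⟩ := hΨ _ he
      have htN : t ∈ normalizerIn S (P ⊓ T) := by
        rw [h4]; exact ⟨hTS h1, Subgroup.le_normalizer h1⟩
      have hψN := hΨ.maps c he
      have hψt : Ψ (P ⊓ T) t ∈ T := StronglyClosed.map_mem F c.hT hQ'.iso.1 htN h1
      refine ⟨lift ι (Ψ (P ⊓ T) t), BV.of_T ⟨hψt, (hψN t htN).2⟩, fun x hx => ?_⟩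
      have hxN := hPN hx
      show lift ι (Ψ (P ⊓ T) (t * x * t⁻¹)) = _
      rw [hQ'.iso.1.map_conj htN hxN, lift_conj (hψN t htN) (hψN x hxN)]
    · have hTt : t ∈ S := hTS h1
      have hM'N : P ⊓ T ≤ normalizerIn S (P ⊓ T) := le_normalizerIn (inf_le_right.trans hTS)
      have hET : ∃ R', ET F E p (normalizerIn S (P ⊓ T)) R' (fun x => t * x * t⁻¹) :=
        ⟨_, ET.conj h1 (fiso_conj F (normalizerIn_le S _) hTt)⟩
      obtain ⟨R', hET⟩ := hET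
      have hlt : Nat.card (P ⊓ T : Subgroup Ω) < Nat.card (normalizerIn S (P ⊓ T) ⊓ T : Subgroup Ω) := by
        have h5 := lt_normalizerIn c.hTp le_rfl h4
        have h6 : normalizerIn T (P ⊓ T) ≤ normalizerIn S (P ⊓ T) ⊓ T := fun x hx => ⟨⟨hTS hx.1, hx.2⟩, hx.1⟩
        have hf : Finite (normalizerIn S (P ⊓ T) ⊓ T : Subgroup Ω) := finite_of_le (inf_le_right.trans hTS)
        exact card_lt (h5.trans_le h6)
      obtain ⟨g, hg, h5⟩ := h.step c hΨ hU he hET hM'N le_rfl htM hlt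
      exact ⟨g, hg, fun x hx => h5 x (hPN hx)⟩
  | @comp P Q R f₁ f₂ h1 h2 ih1 ih2 =>
    intro he
    obtain ⟨g₁, hg₁, k1⟩ := ih1 he
    have h3 : FIso E (P ⊓ T) (Q ⊓ T) f₁ := h1.isoE c
    obtain ⟨e', he', -, -⟩ := h3.symm
    obtain ⟨e, he0⟩ := he
    obtain ⟨g₂, hg₂, k2⟩ := ih2 ⟨_, he'.trans he0⟩
    refine ⟨g₂ * g₁, hg₂.mul h.loc.Bn c.TS hg₁, fun x hx => ?_⟩
    show lift ι (Ψ (R ⊓ T) (f₂ (f₁ x))) = _
    rw [k2 _ (h1.iso.mem hx), k1 x hx]; group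
  | @congr P Q f₁ f₂ h1 h2 ih =>
    intro he
    obtain ⟨g, hg, k⟩ := ih he
    exact ⟨g, hg, fun x hx => by rw [← h2 x hx]; exact k x hx⟩

theorem LocT.AU [Finite S] [Fact p.Prime] (c : Cx F E p) (h : LocT F E p M ι B) {Ψ : Subgroup Ω → Ω → Ω}
    (hΨ : Fam4 F E p M Ψ) (hU : ∀ P₁, TC F T P₁ → Nat.card M < Nat.card P₁ → AU F E p P₁)
    (hM' : ∃ e, FIso E M' M e) : FusionES.AU F E p M' := by
  intro P Q f hf hPM hfix
  subst hPM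
  have hPS := hf.iso.le_left
  have hPN : P ≤ normalizerIn S (P ⊓ T) := normal_inf c hPS
  have hMN := h.loc.MN c
  have hfi := fiso_inf c.hT hf.iso
  have hQP : Q ⊓ T = P ⊓ T := by
    ext y
    rw [hfi.mem_iff]
    constructor
    · rintro ⟨x, hx, rfl⟩; rwa [hfix x hx]
    · intro hy; exact ⟨y, hy, hfix y hy⟩
  obtain ⟨g, hg, h1⟩ := h.chain c hΨ hU hf hM'
  rw [hQP] at h1
  obtain ⟨⟨Q', hQ'⟩, hψ⟩ := hΨ _ hM'
  have hψN := hΨ.maps c hM'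
  obtain ⟨z, hz, hz'⟩ := (mem_im_iff' hMN).1 (h.loc.cen g hg (fun m hm => by
    obtain ⟨x, hx, rfl⟩ := hψ.mem_iff.1 hm
    have h2 := h1 x hx.1
    rw [hfix x hx] at h2
    exact h2.symm))
  obtain ⟨z', hz'1, rfl⟩ := hψ.mem_iff.1 hz
  have hz'N := hPN hz'1.1
  have hmain : ∀ x ∈ P, f x = z' * x * z'⁻¹ := by
    intro x hx
    have hxN := hPN hx
    have hfxN : f x ∈ normalizerIn S (P ⊓ T) :=
      ⟨hf.iso.1.map_mem hx, by
        have h2 := hfi.map_normalizer hf.iso.1 inf_le_left hx hxN.2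
        rwa [hQP] at h2⟩
    have h2 := h1 x hx
    rw [← hz', ← lift_conj (hψN z' hz'N) (hψN x hxN), ← hQ'.iso.1.map_conj hz'N hxN] at h2
    have h3 : z' * x * z'⁻¹ ∈ normalizerIn S (P ⊓ T) := Subgroup.mul_mem _ (Subgroup.mul_mem _ hz'N hxN) (Subgroup.inv_mem _ hz'N)
    exact hQ'.iso.1.inj hfxN h3 (lift_inj h.loc.inj (hψN _ hfxN) (hψN _ h3) h2)
  refine ⟨z', hz'1, mem_centralizer_iff'.2 fun x hx => ?_, hmain⟩
  rw [← hmain x hx.1, hfix x hx]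

theorem LocT.A3 [Finite S] [Fact p.Prime] (c : Cx F E p) (h : LocT F E p M ι B) {Ψ : Subgroup Ω → Ω → Ω}
    (hΨ : Fam4 F E p M Ψ) (hM' : ∃ e, FIso E M' M e) : FusionES.A3 F E p M' := by
  intro P μ hPS hPM hμ hC
  subst hPM
  have hPN : P ≤ normalizerIn S (P ⊓ T) := normal_inf c hPS
  have hMN := h.loc.MN c
  obtain ⟨M'', hμi⟩ := hμ.exists_iso
  obtain ⟨μ', hμ', -, -⟩ := hμi.symm
  obtain ⟨e, he⟩ := hM'
  have hM'' : ∃ e, FIso E M'' M e := ⟨_, hμ'.trans he⟩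
  obtain ⟨⟨Q', hQ'⟩, hψ'⟩ := hΨ _ ⟨e, he⟩
  obtain ⟨⟨Q'', hQ''⟩, hψ''⟩ := hΨ _ hM''
  have hψ'N := hΨ.maps c ⟨e, he⟩
  have hψ''N := hΨ.maps c hM''
  obtain ⟨k', hk', k1, k2⟩ := hψ'.symm
  -- the automorphism of `M`
  have hl : FIso E M M (fun m => Ψ M'' (μ (k' m))) := (hk'.trans hμi).trans hψ''
  obtain ⟨g, hg, h1⟩ := h.loc.l1 _ hl
  obtain ⟨P₁, hP₁⟩ := hQ'.exists_restrict hPN
  have hMP₁ : M ≤ P₁ := fun m hm => by
    obtain ⟨x, hx, rfl⟩ := hψ'.mem_iff.1 hm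
    exact hP₁.iso.mem hx.1
  have hP₁N : P₁ ≤ normalizerIn S M := fun y hy => by
    obtain ⟨x, hx, rfl⟩ := hP₁.iso.mem_iff.1 hy
    exact hψ'N x (hPN hx)
  have hnorm : ∀ y ∈ P, ∀ t ∈ T, (∀ x ∈ P ⊓ T, μ (y * x * y⁻¹) = (t * y) * μ x * (t * y)⁻¹) → t * y ∈ normalizerIn S M'' := by
    intro y hy t ht hty
    have hyS := hPS hy
    refine ⟨S.mul_mem (c.TS ht) hyS, ?_⟩
    have hM''f : Finite M'' := finite_of_le (hμi.le_right.trans c.TS)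
    refine Subgroup.mem_normalizer_fintype fun z hz => ?_
    obtain ⟨x, hx, rfl⟩ := hμi.mem_iff.1 hz
    have h3 : y * x * y⁻¹ ∈ P ⊓ T := (Subgroup.mem_normalizer_iff.1 (hPN hy).2 x).1 hx
    have h4 := hμi.mem h3
    rw [hty x hx] at h4
    exact h4
  have hmodT : ∀ {y : Ω}, y ∈ P → (Ψ (P ⊓ T) y) * y⁻¹ ∈ T := fun {y} hy => by
    have h2 := c.norm (hPS hy) (hP₁.mod c y hy)
    have e : y * (y⁻¹ * Ψ (P ⊓ T) y) * y⁻¹ = Ψ (P ⊓ T) y * y⁻¹ := by group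
    rwa [e] at h2
  have hnear : ∀ y ∈ P, ∃ w ∈ normalizerIn S M'', ∃ z ∈ M, lift ι (z * Ψ M'' w) = g * lift ι (Ψ (P ⊓ T) y) * g⁻¹ := by
    intro y hy
    obtain ⟨t, ht, hty⟩ := hC y hy
    have hw := hnorm y hy t ht hty
    have hyS := hPS hy
    obtain ⟨z, hz, hz'⟩ := h.near c hg hl h1 (hψ'N y (hPN hy)) (hψ''N _ hw) (by
      -- `Ψ' y (Ψ'' w)⁻¹ ∈ T`
      have h2 : (t * y)⁻¹ * Ψ M'' (t * y) ∈ T := hQ''.mod c _ hw
      have h3 := c.norm hw.1 (T.inv_mem h2)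
      have h4 : Ψ (P ⊓ T) y * y⁻¹ ∈ T := hmodT hy
      have e : Ψ (P ⊓ T) y * (Ψ M'' (t * y))⁻¹ = (Ψ (P ⊓ T) y * y⁻¹) * t⁻¹ *
          (t * y * ((t * y)⁻¹ * Ψ M'' (t * y))⁻¹ * (t * y)⁻¹) := by group
      rw [e]
      exact T.mul_mem (T.mul_mem h4 (T.inv_mem ht)) h3) (fun m hm => by
      obtain ⟨x, hx, rfl⟩ := hψ'.mem_iff.1 hm
      have h3 : y * x * y⁻¹ ∈ P ⊓ T := (Subgroup.mem_normalizer_iff.1 (hPN hy).2 x).1 hx
      show Ψ M'' (μ (k' (Ψ (P ⊓ T) y * Ψ (P ⊓ T) x * (Ψ (P ⊓ T) y)⁻¹))) = Ψ M'' (t * y) * Ψ M'' (μ (k' (Ψ (P ⊓ T) x))) * (Ψ M'' (t * y))⁻¹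
      rw [← hP₁.iso.1.map_conj hy hx.1, k1 _ h3, k1 x hx, hty x hx]
      have hμx : μ x ∈ normalizerIn S M'' := le_normalizerIn (hμi.le_right.trans c.TS) (hμi.mem hx)
      rw [hQ''.iso.1.map_conj hw hμx])
    exact ⟨_, hw, z, hz, hz'⟩
  have hex : ∃ φ : Ω → Ω, ∀ y ∈ P₁, (∃ w ∈ normalizerIn S M'', ∃ z ∈ M, φ y = z * Ψ M'' w) ∧ lift ι (φ y) = g * lift ι y * g⁻¹ := by
    have : ∀ y ∈ P₁, ∃ v : Ω, (∃ w ∈ normalizerIn S M'', ∃ z ∈ M, v = z * Ψ M'' w) ∧ lift ι v = g * lift ι y * g⁻¹ := by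
      intro y hy
      obtain ⟨x, hx, rfl⟩ := hP₁.iso.mem_iff.1 hy
      obtain ⟨w, hw, z, hz, h2⟩ := hnear x hx
      exact ⟨_, ⟨w, hw, z, hz, rfl⟩, h2⟩
    choose! φ hφ1 hφ2 using this
    exact ⟨φ, fun y hy => ⟨hφ1 y hy, hφ2 y hy⟩⟩
  obtain ⟨φ, hφ⟩ := hex
  have hφN : ∀ x ∈ P₁, φ x ∈ normalizerIn S M := fun x hx => by
    obtain ⟨⟨w, hw, z, hz, h2⟩, -⟩ := hφ x hx
    rw [h2]; exact Subgroup.mul_mem _ (hMN hz) (hψ''N w hw)
  obtain ⟨Q₁, hQ₁⟩ := h.real c hg hMP₁ hP₁N hφN (fun x hx => (hφ x hx).2)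
  obtain ⟨k, hk, m1, m2⟩ := hQ''.exists_inv c
  have hQ₁Q : Q₁ ≤ Q'' := fun y hy => by
    obtain ⟨x, hx, rfl⟩ := hQ₁.iso.mem_iff.1 hy
    obtain ⟨⟨w, hw, z, hz, h2⟩, -⟩ := hφ x hx
    rw [h2]
    refine Q''.mul_mem ?_ (hQ''.iso.mem hw)
    obtain ⟨z', hz', rfl⟩ := hψ''.mem_iff.1 hz
    exact hQ''.iso.mem (le_normalizerIn (hμi.le_right.trans c.TS) hz')
  obtain ⟨Q₂, hQ₂⟩ := hk.exists_restrict hQ₁Q
  refine ⟨Q₂, _, (hP₁.comp hQ₁).comp hQ₂, fun x hx => ?_⟩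
  show k (φ (Ψ (P ⊓ T) x)) = μ x
  have hx1 : Ψ (P ⊓ T) x ∈ M := hψ'.mem hx
  have h2 : φ (Ψ (P ⊓ T) x) = Ψ M'' (μ x) := by
    refine lift_inj h.loc.inj (hφN _ (hMP₁ hx1)) (hMN (hψ''.mem (hμi.mem hx))) ?_
    rw [(hφ _ (hMP₁ hx1)).2, ← h1 _ hx1]
    show lift ι (Ψ M'' (μ (k' (Ψ (P ⊓ T) x)))) = _
    rw [k1 x hx]
  rw [h2, m1 _ (le_normalizerIn (hμi.le_right.trans c.TS) (hμi.mem hx))]

end locT

theorem main_ind [Finite S] [Fact p.Prime] (c : Cx F E p) : ∀ (n : ℕ) (P₀ : Subgroup Ω), TC F T P₀ →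
    Nat.card T - Nat.card P₀ = n → A3 F E p P₀ ∧ A4 c P₀ ∧ AU F E p P₀ := by
  intro n
  induction n using Nat.strong_induction_on with
  | _ n ih =>
  intro P₀ hP₀ hn
  have hTS := c.TS
  have hTf : Finite T := finite_of_le hTS
  have hbig : ∀ P₁, TC F T P₁ → Nat.card P₀ < Nat.card P₁ → A3 F E p P₁ ∧ A4 c P₁ ∧ AU F E p P₁ := by
    intro P₁ hP₁ hlt
    refine ih _ ?_ P₁ hP₁ rfl
    have h1 : Nat.card P₁ ≤ Nat.card T := Nat.card_le_card_of_injective _ (Subgroup.inclusion_injective hP₁.1)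
    omega
  have hA4 : ∀ M', TC F T M' → Nat.card M' = Nat.card P₀ → A4 c M' := by
    rintro M' hM' hcard M hM hW ⟨e, he⟩
    rcases hM'.1.eq_or_lt with h | hlt
    · subst h
      have hMT : M = M' := Subgroup.eq_of_le_of_card_ge hM (he.card_eq.le)
      subst hMT
      have hNS : normalizerIn S M ≤ S := normalizerIn_le S M
      exact ⟨_, fun x => x, ET.id hNS, FIso.refl E le_rfl⟩
    · obtain ⟨μ, hμ, hC⟩ := hW.exists_map he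
      obtain ⟨μ₁, hμ₁, h1, h2, h3⟩ := ext_C c hM' hμ hC
      have hlt' := lt_normalizerIn c.hTp le_rfl hlt
      have hRf : Finite (normalizerIn T M') := finite_of_le ((normalizerIn_le T M').trans hTS)
      have hRtc : TC F T (normalizerIn T M') := hM'.mono c.hT hlt'.le (normalizerIn_le T M')
      have h4 := (hbig _ hRtc (hcard ▸ card_lt hlt')).1
      have hinf : normalizerIn S M' ⊓ T = normalizerIn T M' := by
        ext x; exact ⟨fun hx => ⟨hx.2, hx.1.2⟩, fun hx => ⟨⟨hTS hx.1, hx.2⟩, hx.1⟩⟩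
      obtain ⟨Q, f, hf, h5⟩ := h4 _ μ₁ (normalizerIn_le S M') hinf hμ₁ h3
      refine ⟨Q, f, hf, hμ.congr fun x hx => ?_⟩
      rw [h5 x (hlt'.le hx), h1 x hx]
  have hA4P := hA4 P₀ hP₀ rfl
  obtain ⟨M, hM, μ, hμ, hW⟩ := exists_WP c _ P₀ hP₀ rfl
  have hMtc : TC F T M := hP₀.conj c.hT (sub_fiso c.hE.sub hμ).isConj
  obtain ⟨G, i1, i2, ι, B, hL⟩ := exists_locT_WP c hMtc hM hW
  have hch : ∀ M', ∃ ψ : Ω → Ω, (∃ e, FIso E M' M e) → (∃ Q, ET F E p (normalizerIn S M') Q ψ) ∧ FIso E M' M ψ := by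
    intro M'
    by_cases he : ∃ e, FIso E M' M e
    · obtain ⟨e, he0⟩ := he
      have hM'tc : TC F T M' := hMtc.conj c.hT (isConj_symm (sub_fiso c.hE.sub he0).isConj)
      have hc : Nat.card M' = Nat.card P₀ := by rw [he0.card_eq, hμ.card_eq]
      obtain ⟨Q, ψ, h1, h2⟩ := hA4 M' hM'tc hc M hM hW ⟨e, he0⟩
      exact ⟨ψ, fun _ => ⟨⟨Q, h1⟩, h2⟩⟩
    · exact ⟨fun x => x, fun h => absurd h he⟩
  choose Ψ hΨ using hch
  have hΨ' : Fam4 F E p M Ψ := hΨ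
  have hU : ∀ P₁, TC F T P₁ → Nat.card M < Nat.card P₁ → AU F E p P₁ := fun P₁ h1 h2 =>
    (hbig P₁ h1 (by rw [hμ.card_eq]; exact h2)).2.2
  exact ⟨hL.A3 c hΨ' ⟨μ, hμ⟩, hA4P, hL.AU c hΨ' hU ⟨μ, hμ⟩⟩

theorem all_A4 [Finite S] [Fact p.Prime] (c : Cx F E p) {P₀ : Subgroup Ω} (h : TC F T P₀) : A4 c P₀ := (main_ind c _ P₀ h rfl).2.1
theorem all_A3 [Finite S] [Fact p.Prime] (c : Cx F E p) {P₀ : Subgroup Ω} (h : TC F T P₀) : A3 F E p P₀ := (main_ind c _ P₀ h rfl).1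
theorem all_AU [Finite S] [Fact p.Prime] (c : Cx F E p) {P₀ : Subgroup Ω} (h : TC F T P₀) : AU F E p P₀ := (main_ind c _ P₀ h rfl).2.2

end Cfsg.Agent.Lib.FusionES
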