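import Cfsg.Agent.Lib.FusionES5
import Cfsg.Agent.Lib.FusionCriterion3

/-!
The product of a normal subsystem with an overgroup: the subsystem and its saturation.
-/

set_option autoImplicit false
set_option linter.unusedSectionVars false

universe u

open Cfsg Cfsg.FusionSystem Cfsg.Agent.Lib.FusionBasic Cfsg.Agent.Lib.FusionSat Cfsg.Agent.Lib.FusionNormal
  Cfsg.Agent.Lib.FusionInvar Cfsg.Agent.Lib.FusionTools Cfsg.Agent.Lib.FusionPP Cfsg.Agent.Lib.FusionStrong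
  Cfsg.Agent.Lib.FusionSys Cfsg.Agent.Lib.FusionFrat Cfsg.Agent.Lib.FusionPrime Cfsg.Agent.Lib.FusionTC
  Cfsg.Agent.Lib.FusionClosed Cfsg.Agent.Lib.FusionStab Cfsg.Agent.Lib.FusionZeta
  Cfsg.Agent.Lib.FusionGroup Cfsg.Agent.Lib.FusionModel Cfsg.Agent.Lib.FusionRealized

namespace Cfsg.Agent.Lib.FusionES

variable {Ω : Type u} [Group Ω] {S T V : Subgroup Ω} {F : FusionSystem S} {E : FusionSystem T}
  {P Q R U M M' X Y Z P₀ : Subgroup Ω} {a b f g ψ θ θ' μ : Ω → Ω} {p : ℕ} {y y' t : Ω}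

/-- a generated map followed by a conjugation -/
def DM (F : FusionSystem S) (E : FusionSystem T) (p : ℕ) (V P : Subgroup Ω) (f : Ω → Ω) : Prop :=
  ∃ s ∈ V, ∃ Q e, ET F E p P Q e ∧ ∀ x ∈ P, f x = s * e x * s⁻¹

theorem DM.congr (h : DM F E p V P f) (hfg : ∀ x ∈ P, f x = g x) : DM F E p V P g := by
  obtain ⟨s, hs, Q, e, h1, h2⟩ := h
  exact ⟨s, hs, Q, e, h1, fun x hx => by rw [← hfg x hx]; exact h2 x hx⟩

theorem DM.restrict (h : DM F E p V P f) (hQ : Q ≤ P) : DM F E p V Q f := by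
  obtain ⟨s, hs, R, e, h1, h2⟩ := h
  obtain ⟨R', h3⟩ := h1.exists_restrict hQ
  exact ⟨s, hs, R', e, h3, fun x hx => h2 x (hQ hx)⟩

theorem DM.of_ET (h : ET F E p P Q f) : DM F E p V P f :=
  ⟨1, V.one_mem, Q, f, h, fun x _ => by group⟩

theorem DM.conj (hP : P ≤ S) {s : Ω} (hs : s ∈ V) : DM F E p V P (fun x => s * x * s⁻¹) :=
  ⟨s, hs, P, _, ET.id hP, fun _ _ => rfl⟩

theorem DM.fmap (h : DM F E p V P f) (hV : V ≤ S) : FMap F P f := by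
  obtain ⟨s, hs, Q, e, h1, h2⟩ := h
  exact (h1.iso.1.comp (fmap_conj F le_rfl (hV hs)) (fun x hx => h1.iso.1.map_mem hx)).congr fun x hx => (h2 x hx).symm

theorem DM.mem (c : Cx F E p) (h : DM F E p V P f) (hTV : T ≤ V) (hP : P ≤ V) : ∀ x ∈ P, f x ∈ V := by
  obtain ⟨s, hs, Q, e, h1, h2⟩ := h
  intro x hx
  rw [h2 x hx]
  exact V.mul_mem (V.mul_mem hs (h1.le_of_le c hTV hP (h1.iso.mem hx))) (V.inv_mem hs)

theorem DM.comp [Finite S] (c : Cx F E p) (hV : V ≤ S) (h : DM F E p V P f) (h' : DM F E p V Q g) (hPQ : ∀ x ∈ P, f x ∈ Q) :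
    DM F E p V P (fun x => g (f x)) := by
  obtain ⟨s₁, hs₁, R₁, e₁, h1, h2⟩ := h
  obtain ⟨s₂, hs₂, R₂, e₂, k1, k2⟩ := h'
  obtain ⟨Q', R₂', e₂', m1, m2, m3, m4⟩ := k1.sconj c (s := s₁⁻¹) (S.inv_mem (hV hs₁))
  have hval : ∀ x ∈ P, s₁⁻¹ * f x * s₁⁻¹⁻¹ = e₁ x := fun x hx => by rw [h2 x hx]; group
  have hR₁ : R₁ ≤ Q' := fun y hy => by
    obtain ⟨x, hx, rfl⟩ := h1.iso.mem_iff.1 hy
    have := m2.mem (hPQ x hx)
    rwa [hval x hx] at this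
  obtain ⟨R₃, m5⟩ := m1.exists_restrict hR₁
  refine ⟨s₂ * s₁, V.mul_mem hs₂ hs₁, R₃, _, h1.comp m5, fun x hx => ?_⟩
  have h3 := m4 (f x) (hPQ x hx)
  rw [hval x hx] at h3
  show g (f x) = s₂ * s₁ * e₂' (e₁ x) * (s₂ * s₁)⁻¹
  rw [h3, k2 _ (hPQ x hx)]; group

theorem DM.inv [Finite S] (c : Cx F E p) (hV : V ≤ S) (h : DM F E p V P f) (hf : FIso F P Q f) (hg : ∀ x ∈ P, g (f x) = x) :
    DM F E p V Q g := by
  obtain ⟨s, hs, R, e, h1, h2⟩ := h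
  obtain ⟨e', k1, k2, k3⟩ := h1.exists_inv c
  obtain ⟨R', P', e'', m1, m2, m3, m4⟩ := k1.sconj c (s := s) (hV hs)
  have hR' : R' = Q := by
    ext y
    rw [m2.mem_iff, hf.mem_iff]
    constructor
    · rintro ⟨x, hx, rfl⟩
      obtain ⟨z, hz, rfl⟩ := h1.iso.mem_iff.1 hx
      exact ⟨z, hz, h2 z hz⟩
    · rintro ⟨x, hx, rfl⟩
      exact ⟨e x, h1.iso.mem hx, (h2 x hx).symm⟩
  rw [hR'] at m1
  refine ⟨s⁻¹, V.inv_mem hs, P', e'', m1, fun y hy => ?_⟩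
  obtain ⟨x, hx, rfl⟩ := hf.mem_iff.1 hy
  have h3 := m4 _ (h1.iso.mem hx)
  rw [k2 x hx, ← h2 x hx] at h3
  rw [hg x hx, h3]; group

/-- the product of `E` with `V` -/
noncomputable def DSys (c : Cx F E p) [Finite S] (V : Subgroup Ω) (hTV : T ≤ V) (hV : V ≤ S) : FusionSystem V :=
  sysOf F V hV (DM F E p V)
    (fun _ _ _ _ h hfg => h.congr hfg)
    (fun _ _ hP hs => DM.conj (hP.trans hV) hs)
    (fun _ _ _ _ _ _ _ h _ h' hPQ => h.comp c hV h' hPQ)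
    (fun _ _ _ _ _ _ hf h _ hgf _ => h.inv c hV hf hgf)

theorem fmap_DSys {c : Cx F E p} [Finite S] {hTV : T ≤ V} {hV : V ≤ S} :
    FMap (DSys c V hTV hV) P f ↔ P ≤ V ∧ DM F E p V P f := by
  rw [DSys, fmap_sysOf]
  constructor
  · rintro ⟨-, h2, -, h4⟩; exact ⟨h2, h4⟩
  · rintro ⟨h2, h4⟩; exact ⟨h4.fmap hV, h2, h4.mem c hTV h2, h4⟩

theorem DSys_sub {c : Cx F E p} [Finite S] {hTV : T ≤ V} {hV : V ≤ S} : (DSys c V hTV hV).IsSubsystemOf F :=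
  isSubsystemOf_iff.2 fun _ _ h => (fmap_DSys.1 h).2.fmap hV

/-- maps realized by the local group are maps of the product -/
theorem LocT.dm [Finite S] [Fact p.Prime] {G : Type u} [Group G] [Finite G] {ι : ↥(normalizerIn S M) →* G} {B : Subgroup G}
    (c : Cx F E p) (h : LocT F E p M ι B) {g : G} {φ : Ω → Ω} (hMP : M ≤ P)
    (hP : P ≤ normalizerIn S M) (hφP : ∀ x ∈ P, φ x ∈ normalizerIn S M) (hφ : ∀ x ∈ P, lift ι (φ x) = g * lift ι x * g⁻¹) :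
    DM F E p S P φ := by
  obtain ⟨x, hx, g', hg', R, f, hf, h1, h2⟩ := h.gen c hP hφP hφ
  rw [sup_eq_left.2 hMP] at hf
  exact ⟨x, hx.1, R, f, hf, h2⟩

/-- maps of the product preserving `M` are realized by the local group -/
theorem LocT.real_dm [Finite S] [Fact p.Prime] {G : Type u} [Group G] [Finite G] {ι : ↥(normalizerIn S M) →* G} {B : Subgroup G}
    {c : Cx F E p} (h : LocT F E p M ι B) {hM : M ≤ T} (hW : WP c M hM) (hf : DM F E p S P f) (hMP : M ≤ P)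
    (hP : P ≤ normalizerIn S M) (hfM : ∀ x ∈ M, f x ∈ M) :
    ∃ g : G, ∀ x ∈ P, lift ι (f x) = g * lift ι x * g⁻¹ := by
  have hfF := hf.fmap le_rfl
  have hfi : FIso F M M f := fiso_restrict hfF hMP hfM
  have hfN : ∀ x ∈ P, f x ∈ normalizerIn S M := fun x hx => ⟨hfF.map_mem hx, hfi.map_normalizer hfF hMP hx (hP hx).2⟩
  obtain ⟨s, hs, Q, e, h1, h2⟩ := hf
  have hMPT : M ≤ P ⊓ T := le_inf hMP hM
  have hTM : TM S E s M f := ⟨hs, e, (h1.inE c).restrict hMPT, fun x hx => h2 x (hMP hx)⟩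
  obtain ⟨n, hn, hns⟩ := hW.exists_norm hTM hfi
  -- `s = t n`
  have ht : n⁻¹ * s ∈ T := by
    have h3 := c.norm' hn.1 (T.inv_mem hns)
    have e1 : n⁻¹ * (n * s⁻¹)⁻¹ * n = n⁻¹ * s := by group
    rwa [e1] at h3
  have hconj := fiso_conj F h1.iso.le_right (c.TS ht)
  have h3 := h1.comp (ET.conj ht hconj)
  have h4 : ∀ x ∈ P, n⁻¹ * s * e x * (n⁻¹ * s)⁻¹ = n⁻¹ * f x * n := fun x hx => by rw [h2 x hx]; group
  obtain ⟨g, hg, h5⟩ := h.real_of_ET c (all_AU c (h.loc.tc.mono c.hT hMPT inf_le_right)) h3 hMP hP (fun x hx => by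
    show n⁻¹ * s * e x * (n⁻¹ * s)⁻¹ ∈ M
    rw [h4 x (hMP hx)]
    have := (Subgroup.mem_normalizer_iff.1 (Subgroup.inv_mem _ hn.2) (f x)).1 (hfM x hx)
    rwa [inv_inv] at this)
  refine ⟨lift ι n * g, fun x hx => ?_⟩
  have h6 : lift ι (n⁻¹ * s * e x * (n⁻¹ * s)⁻¹) = g * lift ι x * g⁻¹ := h5 x hx
  have h7 : f x = n * (n⁻¹ * f x * n) * n⁻¹ := by group
  have h8 : n⁻¹ * f x * n ∈ normalizerIn S M := Subgroup.mul_mem _ (Subgroup.mul_mem _ (Subgroup.inv_mem _ hn) (hfN x hx)) hn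
  rw [h4 x hx] at h6
  rw [h7, lift_conj hn h8, h6]
  group

theorem exists_fn_conj [Finite S] [Fact p.Prime] (hS : IsPGroup p S) (hF : F.IsSaturated p) (hP : P ≤ S) :
    ∃ (Q : Subgroup Ω) (f : Ω → Ω), FIso F P Q f ∧ F.IsFullyAutomized p Q ∧ F.IsReceptive Q := by
  obtain ⟨Q, f, h1, h2, -⟩ := exists_fullyNormalized_map hS hF hP
  exact ⟨Q, f, h2, fullyAutomized_of_fullyNormalized hS hF h1, receptive_of_fullyNormalized hS hF h1⟩

/-- saturation on the subgroups with centric intersection -/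
theorem DSys_hsat [Finite S] [Fact p.Prime] (c : Cx F E p) (hPS : P ≤ S) (hTC : TC F T (P ⊓ T)) :
    ∃ Q, (DSys c S c.TS le_rfl).IsConj P Q ∧ (DSys c S c.TS le_rfl).IsFullyAutomized p Q ∧
      (DSys c S c.TS le_rfl).IsReceptive Q := by
  have hTS := c.TS
  set D := DSys c S c.TS le_rfl with hD
  have hDm : ∀ {P : Subgroup Ω} {f : Ω → Ω}, P ≤ S → (FMap D P f ↔ DM F E p S P f) := fun {P f} hP => by
    rw [hD, fmap_DSys]
    exact ⟨fun h => h.2, fun h => ⟨hP, h⟩⟩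
  obtain ⟨M, hM, μ, hμ, hW⟩ := exists_WP c _ (P ⊓ T) hTC rfl
  obtain ⟨Q', ψ, hψ, hψM⟩ := all_A4 c hTC M hM hW ⟨μ, hμ⟩
  have hMtc : TC F T M := hTC.conj c.hT (sub_fiso c.hE.sub hμ).isConj
  obtain ⟨G, i1, i2, ι, B, hL⟩ := exists_locT_WP c hMtc hM hW
  have hMN := hL.loc.MN c
  have hinj := hL.loc.inj
  have hNS := normalizerIn_le S M
  have hNp : IsPGroup p (normalizerIn S M) := isPGroup_of_le c.hS hNS
  have hNf : Finite (normalizerIn S M) := finite_of_le hNS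
  obtain ⟨S₀, hS₀⟩ := hL.loc.syl
  let L : FusionSystem (normalizerIn S M) := FusionSemi.pull ι hinj
  have hLr : L.IsRealizedBy ι := FusionSemi.pull_isRealizedBy ι hinj
  have hLs : L.IsSaturated p := isSaturated_of_isRealizedBy ι hLr S₀ hS₀
  -- the first step: move `P` into the normalizer of `M`
  have hPN : P ≤ normalizerIn S (P ⊓ T) := normal_inf c hPS
  obtain ⟨P', hP'⟩ := hψ.exists_restrict hPN
  have hP'N : P' ≤ normalizerIn S M := fun y hy => by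
    obtain ⟨x, hx, rfl⟩ := hP'.iso.mem_iff.1 hy
    exact ⟨hP'.iso.1.map_mem hx, (sub_fiso c.hE.sub hψM).map_normalizer hψ.iso.1
      (le_normalizerIn (inf_le_left.trans hPS)) (hPN hx) (hPN hx).2⟩
  have hMP' : M ≤ P' := fun m hm => by
    obtain ⟨x, hx, rfl⟩ := hψM.mem_iff.1 hm
    exact hP'.iso.mem hx.1
  have hP'T : P' ⊓ T = M := by
    ext y
    rw [(fiso_inf c.hT hP'.iso).mem_iff, hψM.mem_iff]
  -- maps of `L` preserve `M`
  have hLM : ∀ {V : Subgroup Ω} {f : Ω → Ω}, FMap L V f → ∀ x ∈ V, x ∈ M → f x ∈ M := by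
    intro V f hf x hx hxM
    obtain ⟨h1, h2, g, h3⟩ := (fmap_realized_iff hLr).1 hf
    have h4 := hL.loc.Mn g x hxM
    rw [← h3 x hx] at h4
    exact (lift_mem_im_iff hinj hMN (h2 x hx)).1 h4
  have hLD : ∀ {V : Subgroup Ω} {f : Ω → Ω}, M ≤ V → FMap L V f → DM F E p S V f := by
    intro V f hMV hf
    obtain ⟨h1, h2, g, h3⟩ := (fmap_realized_iff hLr).1 hf
    exact hL.dm c hMV h1 h2 h3
  have hDL : ∀ {V : Subgroup Ω} {f : Ω → Ω}, M ≤ V → V ≤ normalizerIn S M → DM F E p S V f → (∀ x ∈ M, f x ∈ M) → FMap L V f := by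
    intro V f hMV hV hf hfM
    obtain ⟨g, hg⟩ := hL.real_dm hW hf hMV hV hfM
    have hfF := hf.fmap le_rfl
    have hfi : FIso F M M f := fiso_restrict hfF hMV hfM
    exact (fmap_realized_iff hLr).2 ⟨hV, fun x hx => ⟨hfF.map_mem hx, hfi.map_normalizer hfF hMV hx (hV hx).2⟩, g, hg⟩
  obtain ⟨P₂, χ, hχ, hP₂a, hP₂r⟩ := exists_fn_conj hNp hLs hP'N
  have hMP₂ : M ≤ P₂ := by
    have hχM : ∀ x ∈ M, χ x ∈ M := fun x hx => hLM hχ.1 x (hMP' hx) hx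
    have h1 : FIso L M M χ := fiso_restrict hχ.1 hMP' hχM
    intro m hm
    obtain ⟨x, hx, rfl⟩ := h1.mem_iff.1 hm
    exact hχ.mem (hMP' hx)
  have hP₂N : P₂ ≤ normalizerIn S M := hχ.le_right
  have hP₂S : P₂ ≤ S := hP₂N.trans hNS
  have hχD : DM F E p S P' χ := hLD hMP' hχ.1
  have hχF : FIso F P' P₂ χ := ⟨hχD.fmap le_rfl, hχ.2⟩
  have hP₂T : P₂ ⊓ T = M := by
    have h1 := fiso_inf c.hT hχF
    rw [hP'T] at h1
    have h2 : FIso L M M χ := fiso_restrict hχ.1 hMP' (fun x hx => hLM hχ.1 x (hMP' hx) hx)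
    ext y
    rw [h1.mem_iff, h2.mem_iff]
  have hP'S := hP'N.trans hNS
  have hP'D : FIso D P P' ψ := ⟨(hDm hPS).2 (DM.of_ET hP'), hP'.iso.2⟩
  have hχD' : FIso D P' P₂ χ := ⟨(hDm hP'S).2 hχD, hχ.2⟩
  have hnorm : normalizerIn S P₂ ≤ normalizerIn S M := by
    intro s hs
    refine ⟨hs.1, ?_⟩
    have hMf : Finite M := finite_of_le (hM.trans hTS)
    refine Subgroup.mem_normalizer_fintype fun x hx => ?_
    show s * x * s⁻¹ ∈ M
    rw [← hP₂T] at hx ⊢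
    exact ⟨(Subgroup.mem_normalizer_iff.1 hs.2 x).1 hx.1, c.norm hs.1 hx.2⟩
  have hautM : ∀ f, FIso F P₂ P₂ f → ∀ x ∈ M, f x ∈ M := by
    intro f hf x hx
    have h1 := fiso_inf c.hT hf
    rw [hP₂T] at h1
    exact h1.mem hx
  refine ⟨P₂, (hP'D.trans hχD').isConj, ?_, ?_⟩
  · -- fully automized
    have hA : D.autGroup P₂ = L.autGroup P₂ := by
      ext α
      rw [← FMap_autFun_iff hP₂S, ← FMap_autFun_iff hP₂N, hDm hP₂S]
      constructor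
      · intro h
        refine hDL hMP₂ hP₂N h (hautM _ ?_)
        exact (h.fmap le_rfl).fiso_of_card hP₂S (fun x hx => autFun_mem _ hx) le_rfl
      · intro h; exact hLD hMP₂ h
    have hI : autInducedBy S P₂ = autInducedBy (normalizerIn S M) P₂ := by
      refine le_antisymm (fun α hα => ?_) (autInducedBy_mono hNS)
      obtain ⟨s, hs, h⟩ := mem_autInducedBy_iff.1 hα
      exact mem_autInducedBy_iff.2 ⟨s, hnorm ⟨hs, mem_normalizer_of_aut h⟩, h⟩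
    rw [isFullyAutomized_iff c.hS]
    refine ⟨hP₂S, ?_⟩
    rw [hA, hI]
    exact ((isFullyAutomized_iff hNp).1 hP₂a).2
  · -- receptive
    rw [isReceptive_iff]
    refine ⟨hP₂S, ?_⟩
    intro P₁ f hf V hP₁V hVS hV
    have hP₁S : P₁ ≤ S := hP₁V.trans hVS
    have hfD : DM F E p S P₁ f := (hDm hP₁S).1 hf.1
    have hfF : FIso F P₁ P₂ f := ⟨hfD.fmap le_rfl, hf.2⟩
    -- the intersection with `T`
    have hfM₁ : FIso F (P₁ ⊓ T) M f := by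
      have h1 := fiso_inf c.hT hfF
      rwa [hP₂T] at h1
    obtain ⟨s, hs, Q₁, e, he, hfe⟩ := id hfD
    -- conjugate by `s`
    obtain ⟨P₃, Q₃, e₃, k1, k2, k3, k4⟩ := he.sconj c (s := s) hs
    have hP₃T : FIso F (P₁ ⊓ T) (P₃ ⊓ T) (fun x => s * x * s⁻¹) := fiso_inf c.hT k2
    have hE₃ : FIso E (P₃ ⊓ T) M e₃ := by
      refine ⟨k1.inE c, fun z => ?_⟩
      rw [hfM₁.mem_iff]
      constructor
      · rintro ⟨x, hx, rfl⟩
        exact ⟨s * x * s⁻¹, hP₃T.mem hx, by rw [k4 x hx.1, hfe x hx.1]⟩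
      · rintro ⟨w, hw, rfl⟩
        obtain ⟨x, hx, rfl⟩ := hP₃T.mem_iff.1 hw
        exact ⟨x, hx, by rw [k4 x hx.1, hfe x hx.1]⟩
    have hP₃tc : TC F T (P₃ ⊓ T) := hMtc.conj c.hT (isConj_symm (sub_fiso c.hE.sub hE₃).isConj)
    obtain ⟨Q₄, ψ₄, m1, m2⟩ := all_A4 c hP₃tc M hM hW ⟨e₃, hE₃⟩
    have hm2F := sub_fiso c.hE.sub m2
    -- the map on `V`
    have hVN : V ≤ normalizerIn S (P₁ ⊓ T) := by
      intro v hv
      refine ⟨hVS hv, ?_⟩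
      have hf' : Finite (P₁ ⊓ T : Subgroup Ω) := finite_of_le (inf_le_left.trans hP₁S)
      refine Subgroup.mem_normalizer_fintype fun x hx => ⟨?_, c.norm (hVS hv) hx.2⟩
      exact (Subgroup.mem_normalizer_iff.1 (hV v hv).1 x).1 hx.1
    have hVs : ∀ v ∈ V, s * v * s⁻¹ ∈ normalizerIn S (P₃ ⊓ T) := by
      intro v hv
      exact ⟨S.mul_mem (S.mul_mem hs (hVS hv)) (S.inv_mem hs), hP₃T.map_normalizer (R := S) (fmap_conj F le_rfl hs)
        (inf_le_left.trans hP₁S) (hVS hv) (hVN hv).2⟩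
    have hωD : DM F E p S V (fun v => ψ₄ (s * v * s⁻¹)) :=
      (DM.conj hVS hs).comp c le_rfl (DM.of_ET m1) hVs
    have hωF := hωD.fmap le_rfl
    have hωN : ∀ v ∈ V, ψ₄ (s * v * s⁻¹) ∈ normalizerIn S M := fun v hv =>
      ⟨hωF.map_mem hv, hm2F.map_normalizer m1.iso.1 (le_normalizerIn (inf_le_right.trans hTS)) (hVs v hv) (hVs v hv).2⟩
    obtain ⟨V', hV'⟩ := hωF.exists_iso
    obtain ⟨P₅, hP₅⟩ := (hωF.restrict hP₁V).exists_iso
    obtain ⟨ω', hω', n1, n2⟩ := hP₅.symm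
    have hω'D : DM F E p S P₅ ω' := (hωD.restrict hP₁V).inv c le_rfl hP₅ n1
    have hP₅N : P₅ ≤ normalizerIn S M := fun y hy => by
      obtain ⟨x, hx, rfl⟩ := hP₅.mem_iff.1 hy
      exact hωN x (hP₁V hx)
    have hV'N : V' ≤ normalizerIn S M := fun y hy => by
      obtain ⟨x, hx, rfl⟩ := hV'.mem_iff.1 hy
      exact hωN x hx
    have hωM : ∀ x ∈ P₁ ⊓ T, ψ₄ (s * x * s⁻¹) ∈ M := fun x hx => m2.mem (hP₃T.mem hx)
    have hMωinv : ∀ m ∈ M, ∃ x ∈ P₁ ⊓ T, ψ₄ (s * x * s⁻¹) = m := by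
      intro m hm
      obtain ⟨w, hw, rfl⟩ := m2.mem_iff.1 hm
      obtain ⟨x, hx, rfl⟩ := hP₃T.mem_iff.1 hw
      exact ⟨x, hx, rfl⟩
    have hMP₅ : M ≤ P₅ := fun m hm => by
      obtain ⟨x, hx, rfl⟩ := hMωinv m hm
      exact hP₅.mem hx.1
    have hf₅D : DM F E p S P₅ (fun y => f (ω' y)) := hω'D.comp c le_rfl hfD (fun y hy => hω'.mem hy)
    have hf₅ : FMap L P₅ (fun y => f (ω' y)) := hDL hMP₅ hP₅N hf₅D (fun m hm => by
      obtain ⟨x, hx, rfl⟩ := hMωinv m hm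
      show f (ω' (ψ₄ (s * x * s⁻¹))) ∈ M
      rw [n1 x hx.1]
      exact hfM₁.mem hx)
    have hf₅i : FIso L P₅ P₂ (fun y => f (ω' y)) := ⟨hf₅, (hω'.trans hfF).2⟩
    have hPV' : P₅ ≤ V' := fun y hy => by
      obtain ⟨x, hx, rfl⟩ := hP₅.mem_iff.1 hy
      exact hV'.mem (hP₁V hx)
    obtain ⟨k, hk, hk'⟩ := (isReceptive_iff.1 hP₂r).2 P₅ _ hf₅i V' hPV' hV'N (fun v hv => by
      obtain ⟨w, hw, rfl⟩ := hV'.mem_iff.1 hv
      obtain ⟨hw1, h, hh, hhx⟩ := hV w hw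
      have hconj : ∀ x ∈ P₁, w * x * w⁻¹ ∈ P₁ := fun x hx => (Subgroup.mem_normalizer_iff.1 hw1 x).1 hx
      refine ⟨?_, h, ?_, fun y hy => ?_⟩
      · exact hP₅.map_normalizer hωF hP₁V hw hw1
      · refine hnorm ⟨hh, ?_⟩
        have hP₂f : Finite P₂ := finite_of_le hP₂S
        refine Subgroup.mem_normalizer_fintype fun z hz => ?_
        obtain ⟨x, hx, rfl⟩ := hf.mem_iff.1 hz
        show h * f x * h⁻¹ ∈ P₂
        rw [← hhx x hx]
        exact hf.mem (hconj x hx)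
      · obtain ⟨x, hx, rfl⟩ := hP₅.mem_iff.1 hy
        have h3 : ψ₄ (s * w * s⁻¹) * ψ₄ (s * x * s⁻¹) * (ψ₄ (s * w * s⁻¹))⁻¹ = ψ₄ (s * (w * x * w⁻¹) * s⁻¹) :=
          (hωF.map_conj hw (hP₁V hx)).symm
        show f (ω' (ψ₄ (s * w * s⁻¹) * ψ₄ (s * x * s⁻¹) * (ψ₄ (s * w * s⁻¹))⁻¹)) = h * f (ω' (ψ₄ (s * x * s⁻¹))) * h⁻¹
        rw [h3, n1 _ (hconj x hx), n1 x hx, hhx x hx])
    have hkD : DM F E p S V' k := hLD (hMP₅.trans hPV') hk
    refine ⟨fun v => k (ψ₄ (s * v * s⁻¹)), (hDm hVS).2 (hωD.comp c le_rfl hkD (fun v hv => hV'.mem hv)), fun x hx => ?_⟩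
    show k (ψ₄ (s * x * s⁻¹)) = f x
    rw [hk' _ (hP₅.mem hx), n1 x hx]

/-- subgroups whose intersection with `T` is not centric -/
theorem lemmaV [Finite S] [Fact p.Prime] (c : Cx F E p) : ∀ (n k : ℕ) (P₀ : Subgroup Ω), P₀ ≤ T → ¬ TC F T P₀ →
    Nat.card T - Nat.card P₀ = n → Nat.card S - Nat.card (normalizerIn S P₀) = k →
    ∃ ψ, DM F E p S (normalizerIn S P₀) ψ ∧ ∃ Q, FIso F P₀ Q ψ ∧ ¬ centralizerIn T Q ≤ Q := by
  intro n
  induction n using Nat.strong_induction_on with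
  | _ n ihn =>
  intro k
  induction k using Nat.strong_induction_on with
  | _ k ihk =>
  intro P₀ hP₀T hntc hn hk
  have hTS := c.TS
  have hTf : Finite T := finite_of_le hTS
  have hlt : P₀ < T := by
    refine lt_of_le_of_ne hP₀T fun h => hntc ?_
    rw [h]
    refine ⟨le_rfl, fun Q hQ => ?_⟩
    obtain ⟨f, hf⟩ := isConj_iff_fiso.1 hQ
    have h1 : Q ≤ T := le_of_fiso c.hT le_rfl hf
    have h2 : Q = T := Subgroup.eq_of_le_of_card_ge h1 hf.card_eq.le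
    rw [h2]; exact centralizerIn_le T T
  set R : Subgroup Ω := normalizerIn T P₀ with hR
  have hltR : P₀ < R := lt_normalizerIn c.hTp le_rfl hlt
  have hRT : R ≤ T := normalizerIn_le _ _
  have hRf : Finite R := finite_of_le (hRT.trans hTS)
  have hNR : normalizerIn S P₀ ≤ normalizerIn S R := fun s hs => ⟨hs.1, by
    refine Subgroup.mem_normalizer_fintype fun x hx => ⟨c.norm hs.1 hx.1, ?_⟩
    exact Subgroup.mul_mem _ (Subgroup.mul_mem _ hs.2 hx.2) (Subgroup.inv_mem _ hs.2)⟩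
  have hRN : R ≤ normalizerIn S P₀ := nT_le hTS
  have hP₀N : P₀ ≤ normalizerIn S P₀ := le_normalizerIn (hP₀T.trans hTS)
  have hNf : ∀ Q : Subgroup Ω, Finite (normalizerIn S Q) := fun Q => finite_of_le (normalizerIn_le S Q)
  have hcardT : ∀ {A : Subgroup Ω}, A ≤ T → Nat.card A ≤ Nat.card T := fun h =>
    Nat.card_le_card_of_injective _ (Subgroup.inclusion_injective h)
  have hcardS : ∀ Q : Subgroup Ω, Nat.card (normalizerIn S Q) ≤ Nat.card S := fun Q =>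
    Nat.card_le_card_of_injective _ (Subgroup.inclusion_injective (normalizerIn_le S Q))
  by_cases hRtc : TC F T R
  swap
  · have h1 : Nat.card P₀ < Nat.card R := card_lt hltR
    have h2 := hcardT hRT
    obtain ⟨ψ, hψ, Q, hQ, hQn⟩ := ihn (Nat.card T - Nat.card R) (by omega) _ R hRT hRtc rfl rfl
    obtain ⟨Q₀, hQ₀⟩ := (hQ.1.restrict hltR.le).exists_iso
    refine ⟨ψ, hψ.restrict hNR, Q₀, hQ₀, fun hc => hQn ?_⟩
    have hQ₀Q : Q₀ ≤ Q := fun y hy => by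
      obtain ⟨x, hx, rfl⟩ := hQ₀.mem_iff.1 hy
      exact hQ.mem (hltR.le hx)
    intro z hz
    exact hQ₀Q (hc ⟨hz.1, mem_centralizer_iff'.2 fun x hx => mem_centralizer_iff'.1 hz.2 x (hQ₀Q hx)⟩)
  -- the composition step
  have hstep : ∀ (P₁ : Subgroup Ω) (ψ : Ω → Ω), DM F E p S (normalizerIn S P₀) ψ → FIso F P₀ P₁ ψ →
      Nat.card (normalizerIn S P₀) < Nat.card (normalizerIn S P₁) →
      ∃ ψ, DM F E p S (normalizerIn S P₀) ψ ∧ ∃ Q, FIso F P₀ Q ψ ∧ ¬ centralizerIn T Q ≤ Q := by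
    intro P₁ ψ hψ hψi hcard
    have hP₁T : P₁ ≤ T := le_of_fiso c.hT hP₀T hψi
    have hntc₁ : ¬ TC F T P₁ := fun h => hntc (h.conj c.hT (isConj_symm hψi.isConj))
    have h1 : Nat.card T - Nat.card P₁ = n := by rw [← hψi.card_eq]; exact hn
    have h2 := hcardS P₁
    obtain ⟨ψ', hψ', Q, hQ, hQn⟩ := ihk (Nat.card S - Nat.card (normalizerIn S P₁)) (by omega) P₁ hP₁T hntc₁ h1 rfl
    have hψN : ∀ x ∈ normalizerIn S P₀, ψ x ∈ normalizerIn S P₁ := fun x hx =>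
      ⟨(hψ.fmap le_rfl).map_mem hx, hψi.map_normalizer (hψ.fmap le_rfl) hP₀N hx hx.2⟩
    exact ⟨_, hψ.comp c le_rfl hψ' hψN, Q, hψi.trans hQ, hQn⟩
  obtain ⟨M, hM, μ, hμ, hW⟩ := exists_WP c _ R hRtc rfl
  obtain ⟨Q', ψ, hψ, hψM⟩ := all_A4 c hRtc M hM hW ⟨μ, hμ⟩
  have hMtc : TC F T M := hRtc.conj c.hT (sub_fiso c.hE.sub hμ).isConj
  have hψMF := sub_fiso c.hE.sub hψM
  obtain ⟨P₁, hP₁⟩ := (hψMF.1.restrict hltR.le).exists_iso
  have hψD : DM F E p S (normalizerIn S P₀) ψ := (DM.of_ET hψ).restrict hNR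
  by_cases hc1 : Nat.card (normalizerIn S P₀) < Nat.card (normalizerIn S P₁)
  · exact hstep P₁ ψ hψD hP₁ hc1
  have hψN : ∀ x ∈ normalizerIn S P₀, ψ x ∈ normalizerIn S P₁ := fun x hx =>
    ⟨(hψD.fmap le_rfl).map_mem hx, hP₁.map_normalizer (hψD.fmap le_rfl) hP₀N hx hx.2⟩
  have hψNi : FIso F (normalizerIn S P₀) (normalizerIn S P₁) ψ :=
    (hψD.fmap le_rfl).fiso_of_card (normalizerIn_le S P₁) hψN (not_lt.1 hc1)
  have hinf : ∀ Q : Subgroup Ω, normalizerIn S Q ⊓ T = normalizerIn T Q := fun Q => by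
    ext x; exact ⟨fun hx => ⟨hx.2, hx.1.2⟩, fun hx => ⟨⟨hTS hx.1, hx.2⟩, hx.1⟩⟩
  have hNP₁ : normalizerIn T P₁ = M := by
    have h1 := fiso_inf c.hT hψNi
    rw [hinf, hinf] at h1
    ext y
    rw [h1.mem_iff, hψM.mem_iff]
  have hP₁T : P₁ ≤ T := le_of_fiso c.hT hP₀T hP₁
  have hP₁M : P₁ ≤ M := hNP₁ ▸ le_normalizerIn hP₁T
  -- the local group at `M`
  obtain ⟨G, i1, i2, ι, B, hL⟩ := exists_locT_WP c hMtc hM hW
  have hMN := hL.loc.MN c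
  have hinj := hL.loc.inj
  have hNS := normalizerIn_le S M
  have hNp : IsPGroup p (normalizerIn S M) := isPGroup_of_le c.hS hNS
  have hNMf : Finite (normalizerIn S M) := finite_of_le hNS
  obtain ⟨S₀, hS₀⟩ := hL.loc.syl
  let L : FusionSystem (normalizerIn S M) := FusionSemi.pull ι hinj
  have hLr : L.IsRealizedBy ι := FusionSemi.pull_isRealizedBy ι hinj
  have hLs : L.IsSaturated p := isSaturated_of_isRealizedBy ι hLr S₀ hS₀
  obtain ⟨P₂, χ, hP₂fn, hχ, hχN, hχN'⟩ := exists_fullyNormalized_map hNp hLs (hP₁M.trans hMN)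
  have hNle : ∀ {Q : Subgroup Ω}, normalizerIn T Q = M → normalizerIn S Q ≤ normalizerIn S M := by
    intro Q hQ s hs
    refine ⟨hs.1, ?_⟩
    have hMf : Finite M := finite_of_le (hM.trans hTS)
    refine Subgroup.mem_normalizer_fintype fun x hx => ?_
    show s * x * s⁻¹ ∈ M
    rw [← hQ] at hx ⊢
    exact ⟨c.norm hs.1 hx.1, Subgroup.mul_mem _ (Subgroup.mul_mem _ hs.2 hx.2) (Subgroup.inv_mem _ hs.2)⟩
  have hNN : normalizerIn (normalizerIn S M) P₁ = normalizerIn S P₁ :=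
    le_antisymm (fun x hx => ⟨hx.1.1, hx.2⟩) (fun x hx => ⟨hNle hNP₁ hx, hx.2⟩)
  have hMP₁N : M ≤ normalizerIn S P₁ := by rw [← hNP₁]; exact nT_le hTS
  rw [hNN] at hχN hχN'
  have hLM : ∀ {V : Subgroup Ω} {f : Ω → Ω}, FMap L V f → ∀ x ∈ V, x ∈ M → f x ∈ M := by
    intro V f hf x hx hxM
    obtain ⟨h1, h2, g, h3⟩ := (fmap_realized_iff hLr).1 hf
    have h4 := hL.loc.Mn g x hxM
    rw [← h3 x hx] at h4
    exact (lift_mem_im_iff hinj hMN (h2 x hx)).1 h4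
  have hLD : ∀ {V : Subgroup Ω} {f : Ω → Ω}, M ≤ V → FMap L V f → DM F E p S V f := by
    intro V f hMV hf
    obtain ⟨h1, h2, g, h3⟩ := (fmap_realized_iff hLr).1 hf
    exact hL.dm c hMV h1 h2 h3
  have hχD : DM F E p S (normalizerIn S P₁) χ := hLD hMP₁N hχN
  have hχF : FIso F P₁ P₂ χ := ⟨(hχD.fmap le_rfl).restrict (le_normalizerIn (hP₁T.trans hTS)), hχ.2⟩
  have hcomp : DM F E p S (normalizerIn S P₀) (fun x => χ (ψ x)) := hψD.comp c le_rfl hχD hψN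
  have hcompi : FIso F P₀ P₂ (fun x => χ (ψ x)) := hP₁.trans hχF
  by_cases hc2 : Nat.card (normalizerIn S P₀) < Nat.card (normalizerIn S P₂)
  · exact hstep P₂ _ hcomp hcompi hc2
  refine ⟨_, hcomp, P₂, hcompi, ?_⟩
  -- the normalizer of `P₂` in `T` is `M`
  have hχNi : FIso F (normalizerIn S P₁) (normalizerIn S P₂) χ :=
    (hχD.fmap le_rfl).fiso_of_card (normalizerIn_le S P₂) (fun x hx => ⟨(hχN' x hx).1.1, (hχN' x hx).2⟩)
      (by rw [← hψNi.card_eq]; exact not_lt.1 hc2)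
  have hNP₂ : normalizerIn T P₂ = M := by
    have h1 := fiso_inf c.hT hχNi
    rw [hinf, hinf, hNP₁] at h1
    have h2 : FIso L M M χ := fiso_restrict hχN hMP₁N (fun x hx => hLM hχN x (hMP₁N hx) hx)
    ext y
    rw [h1.mem_iff, h2.mem_iff]
  have hP₂T : P₂ ≤ T := le_of_fiso c.hT hP₀T hcompi
  have hP₂M : P₂ ≤ M := hNP₂ ▸ le_normalizerIn hP₂T
  intro hcen
  have hntc₂ : ¬ TC F T P₂ := fun h => hntc (h.conj c.hT (isConj_symm hcompi.isConj))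
  have hnE : ¬ E.IsCentric P₂ := fun h => hntc₂ ((centric_iff_tc c.hE).1 h)
  obtain ⟨P₃, e, hP₃, he, heN, heN'⟩ := exists_fullyNormalized_map c.hTp c.hEs hP₂T
  have hP₃T : P₃ ≤ T := hP₃.1
  have hP₃n : ¬ centralizerIn T P₃ ≤ P₃ := fun h => by
    have h1 := (isCentric_iff_of_fullyCentralized (fullyCentralized_of_fullyNormalized c.hTp c.hEs hP₃)).2 h
    exact hnE (isCentric_of_isConj h1 (isConj_symm he.isConj))
  rw [hNP₂] at heN heN'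
  obtain ⟨M₁, hM₁⟩ := heN.exists_iso
  have hM₁N : M₁ ≤ normalizerIn T P₃ := fun y hy => by
    obtain ⟨x, hx, rfl⟩ := hM₁.mem_iff.1 hy
    exact heN' x hx
  have hM₁lt : M₁ < normalizerIn T P₃ := by
    refine lt_of_le_of_ne hM₁N fun h => hP₃n fun z hz => ?_
    have hz' : z ∈ M₁ := by rw [h]; exact centralizerIn_le_normalizerIn T P₃ hz
    obtain ⟨w, hw, rfl⟩ := hM₁.mem_iff.1 hz'
    have hwc : w ∈ Subgroup.centralizer (P₂ : Set Ω) := (he.map_centralizer_iff heN hP₂M hw).1 hz.2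
    exact he.mem (hcen ⟨hM hw, hwc⟩)
  obtain ⟨e', he', -, -⟩ := hM₁.symm
  have hM₁tc : TC F T M₁ := hMtc.conj c.hT (sub_fiso c.hE.sub hM₁).isConj
  obtain ⟨Q₅, ψ₁, k1, k2⟩ := all_A4 c hM₁tc M hM hW ⟨e', he'⟩
  have hNT₃ : normalizerIn T P₃ ≤ T := normalizerIn_le _ _
  have hKlt := lt_normalizerIn c.hTp hNT₃ hM₁lt
  set K : Subgroup Ω := normalizerIn (normalizerIn T P₃) M₁ with hK
  have hKT : K ≤ T := (normalizerIn_le _ _).trans hNT₃
  have hKN : K ≤ normalizerIn S M₁ := fun x hx => ⟨hTS (hKT hx), hx.2⟩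
  have hKf : Finite K := finite_of_le (hKT.trans hTS)
  have hP₃M₁ : P₃ ≤ M₁ := fun y hy => by
    obtain ⟨x, hx, rfl⟩ := he.mem_iff.1 hy
    exact hM₁.mem (hP₂M hx)
  obtain ⟨P₄, hP₄⟩ := (k2.1.restrict hP₃M₁).exists_iso
  have hP₄M : P₄ ≤ M := fun y hy => by
    obtain ⟨x, hx, rfl⟩ := hP₄.mem_iff.1 hy
    exact k2.mem (hP₃M₁ hx)
  have k2F := sub_fiso c.hE.sub k2
  have hP₄F := sub_fiso c.hE.sub hP₄
  have hKmap : ∀ x ∈ K, ψ₁ x ∈ normalizerIn T M ∧ ψ₁ x ∈ Subgroup.normalizer (P₄ : Set Ω) := by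
    intro x hx
    have hxN := hKN hx
    refine ⟨⟨StronglyClosed.map_mem F c.hT k1.iso.1 hxN (hKT hx), ?_⟩, ?_⟩
    · exact k2F.map_normalizer k1.iso.1 (le_normalizerIn (hM₁.le_right.trans hTS)) hxN hxN.2
    · exact hP₄F.map_normalizer k1.iso.1 (hP₃M₁.trans (le_normalizerIn (hM₁.le_right.trans hTS))) hxN hx.1.2
  -- `P₂` and `P₄` are conjugate in `L`
  have hl : FIso E M M (fun x => ψ₁ (e x)) := hM₁.trans k2
  obtain ⟨g, hg, hgl⟩ := hL.loc.l1 _ hl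
  have hLmap : FMap L M (fun x => ψ₁ (e x)) := (fmap_realized_iff hLr).2 ⟨hMN, fun x hx => hMN (hl.mem hx), g, hgl⟩
  have hconj : FIso L P₂ P₄ (fun x => ψ₁ (e x)) := ⟨hLmap.restrict hP₂M, (he.trans hP₄).2⟩
  obtain ⟨ω, hω, hωN, hωN'⟩ := exists_map_to_fullyNormalized hNp hLs hP₂fn (isConj_symm hconj.isConj)
  have hNS' : ∀ x ∈ normalizerIn (normalizerIn S M) P₄, x ∈ T → ω x ∈ M := by
    intro x hx hxT
    rw [← hNP₂]
    refine ⟨?_, (hωN' x hx).2⟩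
    -- maps of `L` preserve `T`
    obtain ⟨h1, h2, g', h3⟩ := (fmap_realized_iff hLr).1 hωN
    obtain ⟨x', hx', g'', hg'', R', f', hf', h4, h5⟩ := hL.gen c h1 h2 h3
    rw [h5 x hx]
    exact c.norm hx'.1 (StronglyClosed.map_mem F c.hT hf'.iso.1 ((le_sup_left : _ ≤ _ ⊔ M) hx) hxT)
  have hinjK : Function.Injective (fun x : K => (⟨ω (ψ₁ x), hNS' _ ⟨⟨hTS (hKmap x x.2).1.1, (hKmap x x.2).1.2⟩,
      (hKmap x x.2).2⟩ (hKmap x x.2).1.1⟩ : M)) := by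
    intro x y hxy
    have h1 : ω (ψ₁ x) = ω (ψ₁ y) := congrArg Subtype.val hxy
    have h2 := hωN.inj ⟨⟨hTS (hKmap x x.2).1.1, (hKmap x x.2).1.2⟩, (hKmap x x.2).2⟩
      ⟨⟨hTS (hKmap y y.2).1.1, (hKmap y y.2).1.2⟩, (hKmap y y.2).2⟩ h1
    exact Subtype.ext (k1.iso.1.inj (hKN x.2) (hKN y.2) h2)
  have hMf : Finite M := finite_of_le (hM.trans hTS)
  have h1 : Nat.card K ≤ Nat.card M := Nat.card_le_card_of_injective _ hinjK
  have h2 : Nat.card M₁ < Nat.card K := card_lt hKlt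
  rw [← hM₁.card_eq] at h2
  omega

theorem DSys_hstar [Finite S] [Fact p.Prime] (c : Cx F E p) (hPc : (DSys c S c.TS le_rfl).IsCentric P)
    (hP : ¬ TC F T (P ⊓ T)) : ∃ Q, (DSys c S c.TS le_rfl).IsConj P Q ∧
      ¬ (autInducedBy S Q ⊓ (pCore p ↥((DSys c S c.TS le_rfl).autGroup Q)).map ((DSys c S c.TS le_rfl).autGroup Q).subtype ≤ Inn Q) := by
  have hTS := c.TS
  set D := DSys c S c.TS le_rfl with hD
  have hPS : P ≤ S := hPc.1
  obtain ⟨ψ, hψ, Q₀, hQ₀, hn⟩ := lemmaV c _ _ (P ⊓ T) inf_le_right hP rfl rfl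
  have hPN : P ≤ normalizerIn S (P ⊓ T) := normal_inf c hPS
  obtain ⟨Q, hQ⟩ := ((hψ.fmap le_rfl).restrict hPN).exists_iso
  have hQD : FIso D P Q ψ := ⟨fmap_DSys.2 ⟨hPS, hψ.restrict hPN⟩, hQ.2⟩
  have hQS := hQ.le_right
  have hQT : Q ⊓ T = Q₀ := by
    ext y
    rw [(fiso_inf c.hT hQ).mem_iff, hQ₀.mem_iff]
  have hQc : D.IsCentric Q := isCentric_of_isConj hPc hQD.isConj
  refine ⟨Q, hQD.isConj, fun hle => ?_⟩
  have hTD : D.StronglyClosed T := (stronglyClosed_iff D).2 ⟨hTS, fun P f hP hf x hx =>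
    StronglyClosed.map_mem F c.hT (sub_fmap DSys_sub hf) hx (hP hx)⟩
  have hCS : centralizerIn T Q₀ ≤ S := (centralizerIn_le T Q₀).trans hTS
  have hlt := lt_sup_normalizerIn c.hS hQS hCS (fun r hr g hg => ⟨c.norm (hQS hr) hg.1, mem_centralizer_iff'.2 fun x hx => by
      have hx' : r⁻¹ * x * r ∈ Q₀ := by
        rw [← hQT] at hx ⊢
        exact ⟨Q.mul_mem (Q.mul_mem (Q.inv_mem hr) hx.1) hr, c.norm' (hQS hr) hx.2⟩
      have h3 := mem_centralizer_iff'.1 hg.2 _ hx'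
      calc r * g * r⁻¹ * x * (r * g * r⁻¹)⁻¹ = r * (g * (r⁻¹ * x * r) * g⁻¹) * r⁻¹ := by group
        _ = x := by rw [h3]; group⟩) (fun h => hn (fun z hz => hQT ▸ ⟨h hz, hz.1⟩))
  obtain ⟨s, hs, hsQ⟩ : ∃ s ∈ normalizerIn (centralizerIn T Q₀) Q, s ∉ Q := by
    by_contra hcon
    push Not at hcon
    exact hlt.not_ge (sup_le le_rfl hcon)
  have hsT : s ∈ T := hs.1.1
  have hκ : conjAut Q s hs.2 ∈ stabT D T Q := by
    refine mem_stabT.2 ⟨conjAut_mem_autGroup hQS hs.2 (hTS hsT), fun x hx hxT => ?_, fun x hx => ?_⟩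
    · rw [autFun_of_mem _ hx, conjAut_apply]
      exact mem_centralizer_iff'.1 hs.1.2 x (hQT ▸ ⟨hx, hxT⟩)
    · rw [autFun_of_mem _ hx, conjAut_apply]
      have e : x⁻¹ * (s * x * s⁻¹) = (x⁻¹ * s * x) * s⁻¹ := by group
      show x⁻¹ * (s * x * s⁻¹) ∈ T
      rw [e]
      exact T.mul_mem (c.norm' (hQS hx) hsT) (T.inv_mem hsT)
  have hstp : IsPGroup p (stabT D T Q) := by
    rintro ⟨δ, hδ⟩
    obtain ⟨h1, h2, h3⟩ := mem_stabT.1 hδ
    obtain ⟨k, hk⟩ := FusionLemD.stab_pow (P := Q ⊓ T) c.hS hQS inf_le_left (fun x hx => h2 x hx.1 hx.2)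
      (fun x hx => ⟨Q.mul_mem (Q.inv_mem hx) (autFun_mem _ hx), h3 x hx⟩)
    exact ⟨k, Subtype.ext hk⟩
  have h4 := FusionCriterion3.le_pCore_map (fun κ hκ => (mem_stabT.1 hκ).1) hstp (stabT_normal hTD hQS) hκ
  have h5 := hle ⟨conjAut_mem_autInducedBy hs.2 (hTS hsT), h4⟩
  rw [inn_eq_autInducedBy] at h5
  obtain ⟨q, hq, h6⟩ := mem_autInducedBy_iff.1 h5
  refine hsQ ?_
  have h7 : q⁻¹ * s ∈ Q := by
    refine (isCentric_iff_of_fullyCentralized (isFullyCentralized_of_centric hQc)).1 hQc ⟨S.mul_mem (S.inv_mem (hQS hq)) (hTS hsT),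
      mem_centralizer_iff'.2 fun x hx => ?_⟩
    have h8 : s * x * s⁻¹ = q * x * q⁻¹ := h6 ⟨x, hx⟩
    calc q⁻¹ * s * x * (q⁻¹ * s)⁻¹ = q⁻¹ * (s * x * s⁻¹) * q := by group
      _ = x := by rw [h8]; group
  have e : s = q * (q⁻¹ * s) := by group
  rw [e]
  exact Q.mul_mem hq h7

theorem ET_le [Finite S] (c : Cx F E p) {E' : FusionSystem S}
    (h : ∀ P, P ≤ S → TC F T (P ⊓ T) → (DSys c S c.TS le_rfl).Hom P ⊆ E'.Hom P) (hf : ET F E p P Q f) : FMap E' P f := by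
  induction hf with
  | @base R P Q a h1 h2 h3 =>
    have h4 : FMap (DSys c S c.TS le_rfl) R a := fmap_DSys.2 ⟨h1.pp.le, DM.of_ET (ET.base h1 le_rfl h1.pp.1)⟩
    exact (hom_subset_iff_fmap.1 (h R h1.pp.le h1.tc) a h4).restrict h2
  | conj h1 h2 => exact fmap_conj E' h2.le_left (c.TS h1)
  | comp h1 h2 ih1 ih2 => exact ih1.comp ih2 fun x hx => h1.iso.mem hx
  | congr h1 h2 ih => exact ih.congr h2

theorem DSys_saturated [Finite S] [Fact p.Prime] (c : Cx F E p) : (DSys c S c.TS le_rfl).IsSaturated p := by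
  refine FusionCriterion3.saturated_of_criterion c.hS _ {P | P ≤ S ∧ TC F T (P ⊓ T)} ?_ ?_ ?_ ?_
  · rintro P ⟨h1, h2⟩ Q hPQ
    obtain ⟨f, hf⟩ := isConj_iff_fiso.1 hPQ
    have hfF := sub_fiso DSys_sub hf
    exact ⟨hf.le_right, h2.conj c.hT (fiso_inf c.hT hfF).isConj⟩
  · rintro P ⟨h1, h2⟩
    exact DSys_hsat c h1 h2
  · intro E' hE'
    rw [le_iff_fmap]
    intro P f hf
    obtain ⟨hP, s, hs, Q, e, he, hfe⟩ := fmap_DSys.1 hf
    have h1 := ET_le c (fun P h1 h2 => hE' P ⟨h1, h2⟩) he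
    exact (h1.comp (fmap_conj E' le_rfl hs) (fun x hx => h1.map_mem hx)).congr fun x hx => (hfe x hx).symm
  · intro P hPc hP
    exact DSys_hstar c hPc (fun h => hP ⟨hPc.1, h⟩)

end Cfsg.Agent.Lib.FusionES
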