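import Cfsg.Agent.Lib.FusionES6
import Cfsg.Agent.Lib.FusionDich
import Cfsg.Agent.Lib.FusionRad

/-!
The product of a normal subsystem with an overgroup: index and uniqueness.
-/

set_option autoImplicit false
set_option linter.unusedSectionVars false

universe u

open Cfsg Cfsg.FusionSystem Cfsg.Agent.Lib.FusionBasic Cfsg.Agent.Lib.FusionSat Cfsg.Agent.Lib.FusionNormal
  Cfsg.Agent.Lib.FusionInvar Cfsg.Agent.Lib.FusionTools Cfsg.Agent.Lib.FusionPP Cfsg.Agent.Lib.FusionStrong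
  Cfsg.Agent.Lib.FusionSys Cfsg.Agent.Lib.FusionFrat Cfsg.Agent.Lib.FusionPrime Cfsg.Agent.Lib.FusionTC
  Cfsg.Agent.Lib.FusionClosed Cfsg.Agent.Lib.FusionStab Cfsg.Agent.Lib.FusionZeta

namespace Cfsg.Agent.Lib.FusionES

variable {Ω : Type u} [Group Ω] {S T V : Subgroup Ω} {F : FusionSystem S} {E : FusionSystem T}
  {P Q R U M M' X Y Z P₀ : Subgroup Ω} {a b f g ψ θ θ' μ : Ω → Ω} {p : ℕ} {y y' t s s' : Ω}

/-- `DM` with the conjugating element -/
def DT (F : FusionSystem S) (E : FusionSystem T) (p : ℕ) (s : Ω) (P : Subgroup Ω) (f : Ω → Ω) : Prop :=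
  ∃ Q e, ET F E p P Q e ∧ ∀ x ∈ P, f x = s * e x * s⁻¹

theorem DT.comp [Finite S] (c : Cx F E p) (hs : s ∈ S) (h : DT F E p s P f) (h' : DT F E p s' Q g)
    (hPQ : ∀ x ∈ P, f x ∈ Q) : DT F E p (s' * s) P (fun x => g (f x)) := by
  obtain ⟨R₁, e₁, h1, h2⟩ := h
  obtain ⟨R₂, e₂, k1, k2⟩ := h'
  obtain ⟨Q', R₂', e₂', m1, m2, m3, m4⟩ := k1.sconj c (s := s⁻¹) (S.inv_mem hs)
  have hval : ∀ x ∈ P, s⁻¹ * f x * s⁻¹⁻¹ = e₁ x := fun x hx => by rw [h2 x hx]; group
  have hR₁ : R₁ ≤ Q' := fun y hy => by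
    obtain ⟨x, hx, rfl⟩ := h1.iso.mem_iff.1 hy
    have := m2.mem (hPQ x hx)
    rwa [hval x hx] at this
  obtain ⟨R₃, m5⟩ := m1.exists_restrict hR₁
  refine ⟨R₃, _, h1.comp m5, fun x hx => ?_⟩
  have h3 := m4 (f x) (hPQ x hx)
  rw [hval x hx] at h3
  show g (f x) = s' * s * e₂' (e₁ x) * (s' * s)⁻¹
  rw [h3, k2 _ (hPQ x hx)]; group

/-- automorphisms of order prime to `p` of the product are generated maps -/
theorem pp_ET [Finite S] [Fact p.Prime] (c : Cx F E p) {hTV : T ≤ V} {hV : V ≤ S} (h : PP (DSys c V hTV hV) p P a) :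
    ET F E p P P a := by
  have hPV := h.le
  have hPS := hPV.trans hV
  obtain ⟨hai, m, hm, hfix⟩ := h
  obtain ⟨-, s, hsV, Q, e, he, hae⟩ := fmap_DSys.1 hai.1
  have hs : s ∈ S := hV hsV
  have hDT : DT F E p s P a := ⟨Q, e, he, hae⟩
  have hit : ∀ n : ℕ, DT F E p (s ^ n) P (a^[n]) := by
    intro n
    induction n with
    | zero => exact ⟨P, _, ET.id hPS, fun x _ => by simp⟩
    | succ n ih =>
      have h1 := ih.comp c (S.pow_mem hs n) hDT (fun x hx => iter_mem hai hx n)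
      obtain ⟨Q', e', h2, h3⟩ := h1
      refine ⟨Q', e', h2, fun x hx => ?_⟩
      rw [Function.iterate_succ_apply', pow_succ']
      exact h3 x hx
  obtain ⟨k, hk⟩ := c.hS ⟨s, hs⟩
  have hk' : s ^ p ^ k = 1 := by simpa using congrArg Subtype.val hk
  have hcop : (p ^ k).Coprime m := Nat.Coprime.pow_left k ((Fact.out : p.Prime).coprime_iff_not_dvd.2 hm)
  obtain ⟨r, hr0, hr1⟩ := Nat.chineseRemainder hcop 0 1
  have hr0' : p ^ k ∣ r := (Nat.modEq_zero_iff_dvd).1 hr0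
  have hsr : s ^ r = 1 := by
    obtain ⟨j, rfl⟩ := hr0'
    rw [pow_mul, hk', one_pow]
  have har : ∀ x ∈ P, a^[r] x = a x := by
    intro x hx
    have h3 : ∀ j : ℕ, a^[m * j] x = x := fun j => iter_fix_mul (hfix x hx) j
    rcases Nat.lt_or_ge r 1 with h4 | h4
    · have hm00 : r = 0 := by omega
      have h5 : m = 1 := by
        rw [hm00] at hr1
        have := (Nat.modEq_iff_dvd' (by omega : 0 ≤ 1)).1 hr1
        simpa using this
      have h6 := hfix x hx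
      rw [h5] at h6
      rw [hm00]
      exact h6.symm
    · have h5 : m ∣ r - 1 := (Nat.modEq_iff_dvd' h4).1 hr1.symm
      obtain ⟨q, hq⟩ := h5
      have h6 : r = m * q + 1 := by omega
      rw [h6, Function.iterate_succ_apply', h3]
  obtain ⟨Q', e', h1, h2⟩ := hit r
  have h3 : ∀ x ∈ P, e' x = a x := fun x hx => by
    have h4 := h2 x hx
    rw [hsr, har x hx] at h4
    rw [h4]; group
  have hQ' : Q' = P := by
    ext y
    rw [h1.iso.mem_iff, hai.mem_iff]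
    constructor
    · rintro ⟨x, hx, rfl⟩; exact ⟨x, hx, (h3 x hx).symm⟩
    · rintro ⟨x, hx, rfl⟩; exact ⟨x, hx, h3 x hx⟩
  rw [hQ'] at h1
  exact h1.congr h3

/-- automorphisms of order prime to `p` of subgroups of `T` -/
theorem AO.of_E [Finite S] (c : Cx F E p) (hP : E.IsCentric P) (ha : PP E p P a) : AO F E p P a := by
  have hPT := hP.1
  have e : P ⊓ T = P := inf_eq_left.2 hPT
  refine ⟨pp_sub c.hE.sub ha, ?_, fun x hx => T.mul_mem (T.inv_mem (hPT hx)) (ha.map.map_mem hx), ?_⟩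
  · rw [e]; exact (centric_iff_tc c.hE).1 hP
  · rw [e]; exact ha.map

theorem E_sub_DSys [Finite S] [Fact p.Prime] (c : Cx F E p) {hTV : T ≤ V} {hV : V ≤ S} : E.IsSubsystemOf (DSys c V hTV hV) := by
  have hTf : Finite T := finite_of_le c.TS
  rw [isSubsystemOf_iff]
  refine FusionPerp.sat_induction c.hTp c.hEs _ ?_ ?_ ?_ ?_ ?_
  · exact fun P f g _ h1 h2 => h1.congr h2
  · exact fun P s hP hs => fmap_conj _ (hP.trans hTV) (hTV hs)
  · exact fun P Q f g _ h1 _ h2 h3 => h1.comp h2 h3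
  · intro P Q f g hf h1 h2
    have h3 : FIso (DSys c V hTV hV) P Q f := ⟨h1, hf.2⟩
    obtain ⟨g', hg', e1, e2⟩ := h3.symm
    refine hg'.1.congr fun y hy => ?_
    obtain ⟨x, hx, rfl⟩ := hf.mem_iff.1 hy
    rw [e1 x hx, h2 x hx]
  · intro P a hP ha
    have hAO := AO.of_E c hP ha
    exact fmap_DSys.2 ⟨hP.1.trans hTV, DM.of_ET (ET.base hAO le_rfl hAO.pp.1)⟩

/-- `E` has `p`-power index in the product -/
theorem DSys_index [Finite S] [Fact p.Prime] (c : Cx F E p) {hTV : T ≤ V} {hV : V ≤ S} :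
    E.HasPPowerIndexIn (DSys c V hTV hV) p := by
  have hVf : Finite V := finite_of_le hV
  refine ⟨E_sub_DSys c, ?_, fun P hP => ?_⟩
  · rw [Cfsg.Agent.Lib.FusionPPower.hyperfocal_le_iff]
    intro P hP α hα ho x
    have h1 := pp_ET c (pp_of_aut hP hα ho)
    have h2 := h1.mod c x x.2
    rwa [autFun_coe] at h2
  · rw [Subgroup.map_le_iff_le_comap]
    unfold Cfsg.pResidual
    rw [Subgroup.closure_le]
    intro α hα
    have hPV := hP.trans hTV
    have h0 : orderOf (α : MulAut P) = orderOf α := Subgroup.orderOf_coe α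
    have h1 := pp_ET c (pp_of_aut hPV α.2 (by rw [h0]; exact hα))
    have h2 := h1.inE c
    rw [inf_eq_left.2 hP] at h2
    exact (FMap_autFun_iff hP).1 h2

/-- if `C_T(Q ∩ T)` is not in `Q ∩ T` then `Q` is not centric radical -/
theorem not_radical [Finite S] [Fact p.Prime] (hS : IsPGroup p S) (hT : F.StronglyClosed T) (hQ : F.IsCentric Q)
    (hn : ¬ centralizerIn T (Q ⊓ T) ≤ Q ⊓ T) : ¬ F.IsRadical p Q := by
  intro hr
  have hTS := hT.1
  have hQS := hQ.1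
  have hnorm : ∀ {s t : Ω}, s ∈ S → t ∈ T → s * t * s⁻¹ ∈ T := fun {s t} hs ht =>
    (Subgroup.mem_normalizer_iff.1 (normalizes_of_stronglyClosed hT hs) t).1 ht
  have hnorm' : ∀ {s t : Ω}, s ∈ S → t ∈ T → s⁻¹ * t * s ∈ T := fun {s t} hs ht => by
    have := hnorm (S.inv_mem hs) ht
    rwa [inv_inv] at this
  have hCS : centralizerIn T (Q ⊓ T) ≤ S := (centralizerIn_le T _).trans hTS
  have hlt := lt_sup_normalizerIn hS hQS hCS (fun r hr g hg => ⟨hnorm (hQS hr) hg.1, mem_centralizer_iff'.2 fun x hx => by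
      have hx' : r⁻¹ * x * r ∈ Q ⊓ T :=
        ⟨Q.mul_mem (Q.mul_mem (Q.inv_mem hr) hx.1) hr, hnorm' (hQS hr) hx.2⟩
      have h3 := mem_centralizer_iff'.1 hg.2 _ hx'
      calc r * g * r⁻¹ * x * (r * g * r⁻¹)⁻¹ = r * (g * (r⁻¹ * x * r) * g⁻¹) * r⁻¹ := by group
        _ = x := by rw [h3]; group⟩) (fun h => hn (fun z hz => ⟨h hz, hz.1⟩))
  obtain ⟨s, hs, hsQ⟩ : ∃ s ∈ normalizerIn (centralizerIn T (Q ⊓ T)) Q, s ∉ Q := by
    by_contra hcon
    push Not at hcon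
    exact hlt.not_ge (sup_le le_rfl hcon)
  have hsT : s ∈ T := hs.1.1
  have hκ : conjAut Q s hs.2 ∈ stabT F T Q := by
    refine mem_stabT.2 ⟨conjAut_mem_autGroup hQS hs.2 (hTS hsT), fun x hx hxT => ?_, fun x hx => ?_⟩
    · rw [autFun_of_mem _ hx, conjAut_apply]
      exact mem_centralizer_iff'.1 hs.1.2 x ⟨hx, hxT⟩
    · rw [autFun_of_mem _ hx, conjAut_apply]
      have e : x⁻¹ * (s * x * s⁻¹) = (x⁻¹ * s * x) * s⁻¹ := by group
      show x⁻¹ * (s * x * s⁻¹) ∈ T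
      rw [e]
      exact T.mul_mem (hnorm' (hQS hx) hsT) (T.inv_mem hsT)
  have hstp : IsPGroup p (stabT F T Q) := by
    rintro ⟨δ, hδ⟩
    obtain ⟨h1, h2, h3⟩ := mem_stabT.1 hδ
    obtain ⟨k, hk⟩ := FusionLemD.stab_pow (P := Q ⊓ T) hS hQS inf_le_left (fun x hx => h2 x hx.1 hx.2)
      (fun x hx => ⟨Q.mul_mem (Q.inv_mem hx) (autFun_mem _ hx), h3 x hx⟩)
    exact ⟨k, Subtype.ext hk⟩
  have h5 := le_inn_of_radical hr (fun κ hκ => (mem_stabT.1 hκ).1) hstp (stabT_normal hT hQS) hκ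
  rw [inn_eq_autInducedBy] at h5
  obtain ⟨q, hq, h6⟩ := mem_autInducedBy_iff.1 h5
  refine hsQ ?_
  have h7 : q⁻¹ * s ∈ Q := by
    refine (isCentric_iff_of_fullyCentralized (isFullyCentralized_of_centric hQ)).1 hQ ⟨S.mul_mem (S.inv_mem (hQS hq)) (hTS hsT),
      mem_centralizer_iff'.2 fun x hx => ?_⟩
    have h8 : s * x * s⁻¹ = q * x * q⁻¹ := h6 ⟨x, hx⟩
    calc q⁻¹ * s * x * (q⁻¹ * s)⁻¹ = q⁻¹ * (s * x * s⁻¹) * q := by group
      _ = x := by rw [h8]; group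
  have e : s = q * (q⁻¹ * s) := by group
  rw [e]
  exact Q.mul_mem hq h7

theorem tc_of_radical [Finite S] [Fact p.Prime] (hS : IsPGroup p S) (hF : F.IsSaturated p) (hT : F.StronglyClosed T)
    (hP : F.IsCentric P) (hr : F.IsRadical p P) : TC F T (P ⊓ T) := by
  have hTS := hT.1
  have hPS := hP.1
  obtain ⟨Q₀, φ, hQ₀, hφ, hφN, -⟩ := exists_fullyNormalized_map hS hF (inf_le_left.trans hPS : P ⊓ T ≤ S)
  have hQ₀T : Q₀ ≤ T := le_of_fiso hT inf_le_right hφ
  have hPN : P ≤ normalizerIn S (P ⊓ T) := by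
    intro q hq
    refine ⟨hPS hq, ?_⟩
    have hf : Finite (P ⊓ T : Subgroup Ω) := finite_of_le (inf_le_left.trans hPS)
    refine Subgroup.mem_normalizer_fintype fun x hx => ⟨P.mul_mem (P.mul_mem hq hx.1) (P.inv_mem hq), ?_⟩
    exact (Subgroup.mem_normalizer_iff.1 (normalizes_of_stronglyClosed hT (hPS hq)) x).1 hx.2
  obtain ⟨Q, hQ⟩ := (hφN.restrict hPN).exists_iso
  have hQT : Q ⊓ T = Q₀ := by
    ext y
    rw [(fiso_inf hT hQ).mem_iff, hφ.mem_iff]
  have h1 : centralizerIn T Q₀ ≤ Q₀ := by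
    by_contra hn
    rw [← hQT] at hn
    exact not_radical hS hT (isCentric_of_isConj hP hQ.isConj) hn (FusionRad.isRadical_of_fiso hS hQ hr)
  exact (FusionThmA.tc_of_fullyNormalized hS hF hT hQ₀T hQ₀ h1).conj hT (isConj_symm hφ.isConj)

theorem ET.mono [Finite S] {D : FusionSystem V} (c : Cx F E p) (c' : Cx D E p) (hs : D.IsSubsystemOf F) (h : ET D E p P Q f) :
    ET F E p P Q f := by
  induction h with
  | @base R P Q a h1 h2 h3 =>
    refine ET.base ⟨pp_sub hs h1.pp, ?_, h1.mod, h1.inE⟩ h2 (sub_fiso hs h3)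
    exact (centric_iff_tc c.hE).1 (h1.tc.centric c'.hE.sub)
  | conj h1 h2 => exact ET.conj h1 (sub_fiso hs h2)
  | comp _ _ ih1 ih2 => exact ih1.comp ih2
  | congr _ h2 ih => exact ih.congr h2

/-- generated maps on subgroups of `V` lie in every saturated subsystem over `V` containing `E` with `p`-power index -/
theorem ET_in [Finite S] [Fact p.Prime] {D : FusionSystem V} (c : Cx F E p) (c' : Cx D E p) (hs : D.IsSubsystemOf F)
    (h : ET F E p P Q f) : P ≤ V → FMap D P f := by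
  have hTV : T ≤ V := c'.TS
  have hVS : V ≤ S := sub_le hs
  have hVf : Finite V := finite_of_le hVS
  induction h with
  | @base U P Q a h1 h2 h3 =>
    intro hPV
    have haV : ∀ x ∈ U ⊓ V, a x ∈ U ⊓ V := fun x hx => ⟨h1.pp.mem hx.1, by
      have e : a x = x * (x⁻¹ * a x) := by group
      rw [e]; exact V.mul_mem hx.2 (hTV (h1.mod x hx.1))⟩
    have hinf : U ⊓ V ⊓ T = U ⊓ T := by
      ext x; constructor
      · rintro ⟨⟨h1, h2⟩, h3⟩; exact ⟨h1, h3⟩
      · rintro ⟨h1, h3⟩; exact ⟨⟨h1, hTV h3⟩, h3⟩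
    have h4 : AO F E p (U ⊓ V) a := h1.restrict c inf_le_left haV (by rw [hinf]; exact h1.tc)
    have hEc : E.IsCentric (U ⊓ V ⊓ T) := h4.tc.centric c.hE.sub
    have hTCD : TC D T (U ⊓ V ⊓ T) := (centric_iff_tc c'.hE).1 hEc
    obtain ⟨Q₁, k, hk, hk'⟩ := all_A3 c' hTCD (U ⊓ V) a inf_le_right rfl h4.inE (fun y hy => by
      refine ⟨a y * y⁻¹, ?_, fun x hx => ?_⟩
      · have h5 := c.norm (h4.pp.le hy) (h4.mod y hy)
        have e : y * (y⁻¹ * a y) * y⁻¹ = a y * y⁻¹ := by group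
        rwa [e] at h5
      · rw [h4.pp.map.map_conj hy hx.1]; group)
    have hkF : ET F E p (U ⊓ V) Q₁ k := hk.mono c c' hs
    obtain ⟨b, hb, e1, e2⟩ := (ET.base h4 le_rfl h4.pp.1).exists_inv c
    have hcomp := hb.comp hkF
    obtain ⟨z, hz, -, hz'⟩ := all_AU c h4.tc _ _ _ hcomp rfl (fun x hx => by
      show k (b x) = x
      have hbx : b x ∈ U ⊓ V ⊓ T := (fiso_inf c.hT hb.iso).mem hx
      rw [hk' _ hbx, e2 x hx.1])
    have hak : ∀ x ∈ U ⊓ V, a x = z⁻¹ * k x * z⁻¹⁻¹ := by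
      intro x hx
      have h5 : k (b (a x)) = z * a x * z⁻¹ := hz' (a x) (haV x hx)
      rw [e1 x hx] at h5
      rw [h5]; group
    have h6 : FMap D (U ⊓ V) a :=
      (hk.iso.1.comp (fmap_conj D le_rfl (V.inv_mem (hTV hz.2))) (fun x hx => hk.iso.1.map_mem hx)).congr
        fun x hx => (hak x hx).symm
    exact h6.restrict (le_inf h2 hPV)
  | conj h1 h2 => exact fun hPV => fmap_conj D hPV (hTV h1)
  | comp h1 h2 ih1 ih2 =>
    exact fun hPV => (ih1 hPV).comp (ih2 (h1.le_of_le c hTV hPV)) fun x hx => h1.iso.mem hx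
  | congr h1 h2 ih => exact fun hPV => (ih hPV).congr h2

/-- uniqueness of the product -/
theorem DSys_unique [Finite S] [Fact p.Prime] {D : FusionSystem V} (c : Cx F E p) (hDs : D.IsSaturated p)
    (hs : D.IsSubsystemOf F) (hidx : E.HasPPowerIndexIn D p) (hTV : T ≤ V) (hV : V ≤ S) (hyp : D.hyperfocalSubgroup p = T) :
    ∀ P f, FMap D P f ↔ FMap (DSys c V hTV hV) P f := by
  have hVf : Finite V := finite_of_le hV
  have hTf : Finite T := finite_of_le c.TS
  have hVp : IsPGroup p V := isPGroup_of_le c.hS hV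
  have hTcl : D.StronglyClosed T := (stronglyClosed_iff D).2 ⟨hTV, fun P f hP hf x hx =>
    StronglyClosed.map_mem F c.hT (sub_fmap hs hf) hx (hP hx)⟩
  have hn : (T.subgroupOf V).Normal := ⟨fun x hx y => c.norm (hV y.2) hx⟩
  have hnorm : E.IsNormalIn D p := by
    have h1 := Cfsg.Agent.Lib.FusionPPower.eq_of_index (isPGroup_of_le hVp hTV) c.hEs
      (Cfsg.Agent.Lib.FusionThmA2.sysA_saturated hVp hDs hTcl (Cfsg.Agent.Lib.FusionPIdx.fam_ap hVp hDs hTcl hyp.le)) hidx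
      (Cfsg.Agent.Lib.FusionPIdx.sysAP_index hVp hDs hTcl hyp.le)
    have h2 := Cfsg.Agent.Lib.FusionPIdx.sysAP_normal hVp hDs hTcl hyp.le
    rw [h1]; exact h2
  obtain ⟨-, -, hEi, hEx⟩ := isNormalIn_iff.1 hnorm
  let c' : Cx D E p := ⟨hVp, hDs, c.hEs, hEi, hEx⟩
  have h1 : ∀ P f, FMap D P f → DM F E p V P f := by
    refine alperin_induction_cr hVp hDs _ ?_ ?_ ?_ ?_ ?_
    · exact fun P f g _ h1 h2 => h1.congr h2
    · exact fun P s hP hs => DM.conj (hP.trans hV) hs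
    · exact fun P Q f g _ h1 _ h2 h3 => h1.comp c hV h2 h3
    · exact fun P Q f g hf h1 _ h2 _ => h1.inv c hV (sub_fiso hs hf) h2
    · intro P a hPn hPc hPr ha
      have hTC := tc_of_radical hVp hDs hTcl hPc hPr
      have hPS := hPc.1.trans hV
      refine fiso_induction (fullyAutomized_of_fullyNormalized hVp hDs hPn) _ ?_ ?_ ?_ ?_ ?_ a ha
      · exact fun f g h1 h2 => h1.congr h2
      · exact fun s hs => DM.conj hPS hs.1
      · exact fun f g hf _ h1 h2 => h1.comp c hV h2 (fun x hx => hf.mem hx)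
      · exact fun f g hf _ h1 h2 _ => h1.inv c hV (sub_fiso hs hf) h2
      · intro f hf
        have hAO : AO F E p P f := by
          refine ⟨pp_sub hs hf, (centric_iff_tc c.hE).1 (hTC.centric hEi.sub), fun x hx => ?_, ?_⟩
          · have h3 := Cfsg.Agent.Lib.FusionPIdx.pp_comm_mem_hyp hf hx
            rwa [hyp] at h3
          · exact FusionDich.pp_of_index hidx inf_le_right hTV
              (hf.restrict inf_le_left (fun x hx => (fiso_inf hTcl hf.1).mem hx))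
        exact DM.of_ET (ET.base hAO le_rfl hAO.pp.1)
  intro P f
  constructor
  · intro hf
    exact fmap_DSys.2 ⟨hf.le, h1 P f hf⟩
  · intro hf
    obtain ⟨hPV, s, hs', Q, e, he, hfe⟩ := fmap_DSys.1 hf
    have h2 := ET_in c c' hs he hPV
    exact (h2.comp (fmap_conj D le_rfl hs') (fun x hx => h2.map_mem hx)).congr fun x hx => (hfe x hx).symm

end Cfsg.Agent.Lib.FusionES
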