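import Mathlib
import Cfsg.Agent.Lib.FusionLayer
import Cfsg.Agent.Lib.H88Trans2

/-!
Images of subnormal subsystems under maps of the system.
-/

set_option autoImplicit false
open Cfsg Cfsg.FusionSystem Cfsg.Agent.Lib.FusionBasic Cfsg.Agent.Lib.FusionSat Cfsg.Agent.Lib.FusionNormal
  Cfsg.Agent.Lib.FusionInvar Cfsg.Agent.Lib.FusionTools Cfsg.Agent.Lib.FusionPrime Cfsg.Agent.Lib.H88Trans

namespace Cfsg.Agent.Lib.FusionMove

open Cfsg.Agent.Lib.H88Trans.Bij

variable {Ω : Type*} [Group Ω] {S T V K U W T' : Subgroup Ω} {F : FusionSystem S} {E : FusionSystem T} {C : FusionSystem K}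
  {D : FusionSystem U} {P Q R M X Y Z N : Subgroup Ω} {a b f g k σ γ : Ω → Ω} {p : ℕ}

noncomputable def bij (h : FIso F P Q f) : Bij P Q where
  a := f
  b := Classical.choose h.symm
  ha := fun _ hx => h.mem hx
  hb := fun _ hy => (Classical.choose_spec h.symm).1.mem hy
  amul := fun _ hx _ hy => h.1.map_mul hx hy
  ba := (Classical.choose_spec h.symm).2.1
  ab := (Classical.choose_spec h.symm).2.2

theorem bij_a (h : FIso F P Q f) : (bij h).a = f := rfl

/-- transport of `C` along `γ` -/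
def Tr (C : FusionSystem T) (C' : FusionSystem T') (γ : Ω → Ω) : Prop := ∃ I : Bij T T', (∀ x ∈ T, I.a x = γ x) ∧ Rel I C C'

theorem tr_exists (h : FIso F T T' γ) (C : FusionSystem T) : ∃ C' : FusionSystem T', Tr C C' γ := by
  have h1 := Rel.exists_rel (bij h) le_rfl C
  rw [im_top] at h1
  obtain ⟨C', h2⟩ := h1
  exact ⟨C', bij h, fun _ _ => rfl, h2⟩

theorem rel_im {I : Bij T T'} {C : FusionSystem T} {C' : FusionSystem T'} (h : Rel I C C') {P : Subgroup Ω} {f : Ω → Ω}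
    (hP : P ≤ T') (hf : ∀ x ∈ P, f x ∈ T') : FMap C' P f ↔ FMap C (I.symm.im P) (fun x => I.b (f (I.a x))) := by
  constructor
  · exact h.bwd P f
  · intro h1
    have h2 := h.fwd _ _ h1
    rw [Bij.im_symm hP] at h2
    refine h2.congr fun y hy => ?_
    show I.a (I.b (f (I.a (I.b y)))) = f y
    rw [I.ab y (hP hy), I.ab _ (hf y hy)]

theorem fs_ext {F₁ F₂ : FusionSystem S} (h : ∀ P f, FMap F₁ P f ↔ FMap F₂ P f) : F₁ = F₂ := by
  refine fusion_ext fun P => ?_
  ext φ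
  rw [← fmap_toFun, ← fmap_toFun]
  exact h P _

theorem symm_b {I : Bij T T} (hI : FIso F T T I.a) : FIso F T T I.b := by
  obtain ⟨g, hg, e1, e2⟩ := hI.symm
  refine hg.congr fun y hy => ?_
  rw [← I.ab y hy, e1 _ (I.hb y hy), I.ab y hy]

theorem rel_of_inv {D : FusionSystem U} {F : FusionSystem S} (hD : Inv D F) (J : Bij U U) (hJ : FIso F U U J.a) : Rel J D D where
  le := le_rfl
  le' := le_rfl
  fwd := by
    intro P f hf
    obtain ⟨g, hg, h1⟩ := hD.conj (Q := J.im P) hJ hf (fun y => mem_im_iff hf.le)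
    refine hg.congr fun y hy => ?_
    obtain ⟨x, hx, rfl⟩ := (mem_im_iff hf.le).1 hy
    show g (J.a x) = J.a (f (J.b (J.a x)))
    rw [h1 x hx, J.ba x (hf.le hx)]
  bwd := by
    intro P f hf
    obtain ⟨g, hg, h1⟩ := hD.conj (Q := J.symm.im P) (symm_b hJ) hf (fun y => mem_im_iff (I := J.symm) hf.le)
    refine hg.congr fun y hy => ?_
    obtain ⟨x, hx, rfl⟩ := (mem_im_iff (I := J.symm) hf.le).1 hy
    show g (J.b x) = J.b (f (J.a (J.b x)))
    rw [h1 x hx, J.ab x (hf.le hx)]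

theorem rel_unique {I : Bij T T'} {C : FusionSystem T} {C₁ C₂ : FusionSystem T'} (h : Rel I C C₁) (h' : Rel I C C₂) : C₁ = C₂ := by
  refine fs_ext fun P f => ⟨fun hf => ?_, fun hf => ?_⟩
  · exact (rel_im h' hf.le fun x hx => hf.map_mem hx).2 ((rel_im h hf.le fun x hx => hf.map_mem hx).1 hf)
  · exact (rel_im h hf.le fun x hx => hf.map_mem hx).2 ((rel_im h' hf.le fun x hx => hf.map_mem hx).1 hf)

theorem rel_congr {I J : Bij T T'} {C : FusionSystem T} {C' : FusionSystem T'} (h : Rel I C C') (hIJ : ∀ x ∈ T, I.a x = J.a x) :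
    Rel J C C' := by
  have hb : ∀ y ∈ T', I.b y = J.b y := fun y hy => by
    rw [← I.ab y hy, I.ba _ (I.hb y hy), hIJ _ (I.hb y hy), J.ba _ (I.hb y hy)]
  have him : ∀ P, I.im P = J.im P := fun P => by
    ext y
    rw [mem_im, mem_im]
    constructor
    · rintro ⟨h1, h2⟩; exact ⟨h1, hb y h1 ▸ h2⟩
    · rintro ⟨h1, h2⟩; exact ⟨h1, (hb y h1).symm ▸ h2⟩
  have him' : ∀ P, I.symm.im P = J.symm.im P := fun P => by
    ext y
    rw [mem_im, mem_im]
    show y ∈ T ∧ I.a y ∈ P ↔ y ∈ T ∧ J.a y ∈ P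
    constructor
    · rintro ⟨h1, h2⟩; exact ⟨h1, hIJ y h1 ▸ h2⟩
    · rintro ⟨h1, h2⟩; exact ⟨h1, (hIJ y h1).symm ▸ h2⟩
  refine ⟨h.le, h.le', fun P f hf => ?_, fun P f hf => ?_⟩
  · rw [← him]
    refine (h.fwd P f hf).congr fun y hy => ?_
    show I.a (f (I.b y)) = J.a (f (J.b y))
    rw [← hb y hy.1, hIJ _ (hf.map_mem hy.2)]
  · rw [← him']
    refine (h.bwd P f hf).congr fun y hy => ?_
    show I.b (f (I.a y)) = J.b (f (J.a y))
    have h1 : I.a y ∈ P := hy.2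
    rw [← hIJ y hy.1, hb _ (hf.map_mem h1)]

theorem tr_unique {C : FusionSystem T} {C₁ C₂ : FusionSystem T'} (h : Tr C C₁ γ) (h' : Tr C C₂ γ) : C₁ = C₂ := by
  obtain ⟨I, hI, h1⟩ := h
  obtain ⟨J, hJ, h2⟩ := h'
  exact rel_unique (rel_congr h1 fun x hx => by rw [hI x hx, hJ x hx]) h2

theorem tr_congr {C : FusionSystem T} {C₁ : FusionSystem T'} (h : Tr C C₁ γ) (h' : ∀ x ∈ T, γ x = σ x) : Tr C C₁ σ := by
  obtain ⟨I, hI, h1⟩ := h
  exact ⟨I, fun x hx => by rw [hI x hx, h' x hx], h1⟩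

/-- composition -/
def compBij {T₀ T₁ : Subgroup Ω} (I : Bij T T₀) (J : Bij U W) (hle : T₀ ≤ U) (h0 : J.im T₀ = T₁) : Bij T T₁ where
  a := fun x => J.a (I.a x)
  b := fun y => I.b (J.b y)
  ha := fun x hx => by rw [← h0]; exact (a_mem_im (hle (I.ha x hx))).2 (I.ha x hx)
  hb := fun y hy => by rw [← h0] at hy; exact I.hb _ hy.2
  amul := fun x hx y hy => by rw [I.amul x hx y hy, J.amul _ (hle (I.ha x hx)) _ (hle (I.ha y hy))]
  ba := fun x hx => by rw [J.ba _ (hle (I.ha x hx)), I.ba x hx]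
  ab := fun y hy => by
    rw [← h0] at hy
    rw [I.ab _ hy.2, J.ab _ hy.1]

/-- composition of transports, the second along a bijection of a larger group -/
theorem tr_comp {T₀ T₁ : Subgroup Ω} {C : FusionSystem T} {C₀ : FusionSystem T₀} {C₁ : FusionSystem T₁} {I : Bij T T₀} {J : Bij U W}
    (h : Rel I C C₀) (h' : Rel J C₀ C₁) : Tr C C₁ (fun x => J.a (I.a x)) := by
  have h0 : J.im T₀ = T₁ := h'.im_eq
  refine ⟨compBij I J h'.le h0, fun _ _ => rfl, le_rfl, le_rfl, fun P f hf => ?_, fun P f hf => ?_⟩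
  · have h1 := h'.fwd _ _ (h.fwd _ _ hf)
    have h2 : J.im (I.im P) = (compBij I J h'.le h0).im P := by
      ext y
      rw [mem_im, mem_im, mem_im]
      constructor
      · rintro ⟨k1, k2, k3⟩
        exact ⟨h0 ▸ ⟨k1, k2⟩, k3⟩
      · rintro ⟨k1, k2⟩
        have k3 : y ∈ J.im T₀ := h0.symm ▸ k1
        exact ⟨k3.1, k3.2, k2⟩
    rw [h2] at h1
    exact h1
  · have h1 := h.bwd _ _ (h'.bwd _ _ hf)
    have h2 : I.symm.im (J.symm.im P) = (compBij I J h'.le h0).symm.im P := by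
      ext y
      rw [mem_im, mem_im, mem_im]
      constructor
      · rintro ⟨k1, k2, k3⟩; exact ⟨k1, k3⟩
      · rintro ⟨k1, k2⟩; exact ⟨k1, h'.le (I.ha y k1), k2⟩
    rw [h2] at h1
    exact h1

/-- The image of a subnormal subsystem under a map of the system is subnormal. -/
theorem subnormal_image {T S : Subgroup Ω} {C : FusionSystem T} {F : FusionSystem S} {p : ℕ} (hC : C.IsSubnormalIn F p) :
    Fact p.Prime → Finite S → IsPGroup p S → ∀ (T' : Subgroup Ω) (C' : FusionSystem T') (γ : Ω → Ω),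
      FIso F T T' γ → Tr C C' γ → C'.IsSubnormalIn F p := by
  induction hC with
  | refl F p =>
    intro hp hfin hS T' C' γ hγ htr
    have hT' : T' = T := by
      have h1 := Subgroup.eq_of_le_of_card_ge hγ.le_right hγ.card_eq.le
      exact h1
    subst hT'
    obtain ⟨I, hI, hrel⟩ := htr
    have : C' = F := rel_unique hrel (rel_of_inv Cfsg.Agent.Lib.FusionLayer.inv_self I (hγ.congr fun x hx => (hI x hx).symm))
    rw [this]
    exact IsSubnormalIn.refl F p
  | @step U S E D F p h1 h2 ih =>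
    intro hp hfin hS T' C' γ hγ htr
    obtain ⟨hDs, -, hDi, -⟩ := isNormalIn_iff.1 h2
    have hUfin : Finite U := finite_of_le hDi.closed.1
    have hUp : IsPGroup p U := isPGroup_of_le hS hDi.closed.1
    have hTU : T ≤ U := sub_le (subnormal_sub h1)
    obtain ⟨a, γ₀, ha, hγ₀, h3⟩ := hDi.frattini hTU hγ.1
    obtain ⟨T₀, hT₀⟩ := hγ₀.exists_iso
    obtain ⟨C₀, hC₀⟩ := tr_exists hT₀ E
    have h4 := ih hp hUfin hUp T₀ C₀ γ₀ hT₀ hC₀
    obtain ⟨I₀, hI₀, hrel₀⟩ := hC₀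
    obtain ⟨T₁, C₁, h5, h6⟩ := exists_subnormal h4 hUp (rel_of_inv hDi (bij ha) ha)
    have h7 := tr_comp hrel₀ h5
    have hT₁ : T₁ = T' := by
      ext y
      rw [← h5.im_eq, mem_im_iff h5.le, hγ.mem_iff]
      constructor
      · rintro ⟨x, hx, rfl⟩
        obtain ⟨z, hz, rfl⟩ := hT₀.mem_iff.1 hx
        exact ⟨z, hz, h3 z hz⟩
      · rintro ⟨x, hx, rfl⟩
        exact ⟨γ₀ x, hT₀.mem hx, (h3 x hx).symm⟩
    subst hT₁
    have h8 : C₁ = C' := tr_unique (tr_congr h7 fun x hx => by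
      show a (I₀.a x) = γ x
      rw [hI₀ x hx, h3 x hx]) htr
    rw [← h8]
    exact IsSubnormalIn.step h6 h2

theorem component_image {T S T' : Subgroup Ω} [Finite S] {C : FusionSystem T} {F : FusionSystem S} {C' : FusionSystem T'} {p : ℕ} [Fact p.Prime]
    (hS : IsPGroup p S) (hC : C.IsComponentIn F p) (hγ : FIso F T T' γ) (htr : Tr C C' γ) : C'.IsComponentIn F p := by
  refine ⟨subnormal_image hC.1 inferInstance inferInstance hS T' C' γ hγ htr, ?_⟩
  obtain ⟨I, hI, hrel⟩ := htr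
  have hTfin : Finite T := finite_of_le hγ.le_left
  exact hrel.quasisimple (isPGroup_of_le hS hγ.le_left) hC.2

theorem tr_of_factor {T : Subgroup Ω} {C : FusionSystem T} {γ : T →* Ω} {E : FusionSystem γ.range} (hE : C.IsFactorSystem ⊥ γ E)
    {F : FusionSystem S} (hγ : FIso F T γ.range (toFun γ)) : Tr C E (toFun γ) := by
  obtain ⟨C', hC'⟩ := tr_exists hγ C
  obtain ⟨I, hI, hrel⟩ := hC'
  have h1 := hrel.isFactorSystem
  have h2 : I.hom hrel.le = γ := by
    ext x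
    show I.a x = γ x
    rw [hI x x.2, toFun_coe]
  rw [h2] at h1
  have h3 : C' = E := by
    refine fusion_ext fun P => ?_
    ext φ
    rw [h1.2.2.2, hE.2.2.2]
  rw [← h3]
  exact ⟨I, hI, hrel⟩

end Cfsg.Agent.Lib.FusionMove
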