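import Cfsg.Agent.Lib.FusionSmall
import Cfsg.Agent.Lib.FusionHyper
import Cfsg.Agent.Lib.H88Small

/-! Control of fusion by abelian subgroups of small exponent of the hyperfocal subgroup
(adapted from `FusionSmall` of helper87). -/

set_option autoImplicit false
set_option maxHeartbeats 400000

open Cfsg Cfsg.FusionSystem Cfsg.Agent.Lib.FusionBasic Cfsg.Agent.Lib.FusionSat Cfsg.Agent.Lib.FusionAlperin
  Cfsg.Agent.Lib.FusionNormal Cfsg.Agent.Lib.FusionClosed Cfsg.Agent.Lib.FusionRad Cfsg.Agent.Lib.FusionNormSat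
  Cfsg.Agent.Lib.FusionSmall

namespace Cfsg.Agent.Lib.FusionSmallHyp

variable {Ω : Type*} [Group Ω] {S T P Q R A B : Subgroup Ω} {E F : FusionSystem S} {f g : Ω → Ω} {p q : ℕ}

/-- Small abelian subgroups of a strongly closed subgroup containing the hyperfocal subgroup control fusion. -/
theorem small_control_in [Fact p.Prime] (hq : (p ≠ 2 ∧ q = p) ∨ (p = 2 ∧ q = 4)) : ∀ (n : ℕ) (S : Subgroup Ω) (_ : Finite S),
    IsPGroup p S → ∀ (T : Subgroup Ω) (E F : FusionSystem S), E.IsSaturated p → F.IsSaturated p → F.StronglyClosed T →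
    F.hyperfocalSubgroup p ≤ T → (∀ P f, FMap E P f → FMap F P f) →
    (∀ A f, A ≤ T → Small q A → FMap F A f → FMap E A f) → (graphs F).ncard = n → ∀ P f, FMap F P f → FMap E P f := by
  intro n
  induction n using Nat.strong_induction_on with
  | _ n ih =>
  intro S hfin hS T E F hE hF hT hhyp hEF hsm hn
  -- normalizers of noncentral small abelian subgroups
  have hN : ∀ B : Subgroup Ω, B ≤ T → Small q B → F.IsFullyNormalized B → ¬ F.IsCentral B → ∀ (P : Subgroup Ω) (f : Ω → Ω), B ≤ P →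
      P ≤ normalizerIn S B → FMap F P f → FIso F B B f → FMap E P f := by
    intro B hBT hB hBF hBc P f hBP hPN hf hfB
    have hBS := hBF.1
    have hBE : E.IsFullyNormalized B := by
      refine ⟨hBS, fun Q hQ => hBF.2 Q ?_⟩
      obtain ⟨k, hk⟩ := isConj_iff_fiso.1 hQ
      exact isConj_iff_fiso.2 ⟨k, hEF _ _ hk.1, hk.2⟩
    refine normalizer_step hS hE hF hEF hB.1 hBE hBF (fun f hf => hsm B f hBT hB hf.1) ?_ hBP hPN hf hfB
    obtain ⟨C, hC⟩ := Cfsg.Agent.S5097.result F B hBS
    obtain ⟨C', hC'⟩ := Cfsg.Agent.S5097.result E B hBS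
    have hCi := isCentralizerSystem_iff.1 hC
    have hCi' := isCentralizerSystem_iff.1 hC'
    have hCs : C.IsSaturated p := centralizerSystem_saturated hS hF (fullyCentralized_of_fullyNormalized hS hF hBF) hC
    have hCs' : C'.IsSaturated p := centralizerSystem_saturated hS hE (fullyCentralized_of_fullyNormalized hS hE hBE) hC'
    have hTS := centralizerIn_le S B
    have hCF : ∀ P f, FMap C P f → FMap F P f := by
      intro P f hf
      obtain ⟨-, -, g, hg, hgf, -⟩ := (hCi P f).1 hf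
      exact (hg.restrict le_sup_left).congr hgf
    have hlt : (graphs C).ncard < n := by
      rw [← hn]
      refine Set.ncard_lt_ncard ⟨graphs_mono hCF, fun hle => hBc ?_⟩ (graphs_finite F)
      rw [isCentral_iff]
      refine ⟨hBS, fun P f hf => ?_⟩
      obtain ⟨-, -, g, hg, hgf, hgB⟩ := (hCi P f).1 (fmap_of_graphs hle hf)
      exact ⟨g, hg, hgf, hgB⟩
    have hCfin : Finite (centralizerIn S B) := finite_of_le hTS
    have hTC : C.StronglyClosed (T ⊓ centralizerIn S B) := by
      rw [stronglyClosed_iff]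
      refine ⟨inf_le_right, fun P f hP hf x hx => ⟨?_, hf.map_mem hx⟩⟩
      exact StronglyClosed.map_mem F hT (hCF P f hf) hx (hP hx).1
    have hhypC : C.hyperfocalSubgroup p ≤ T ⊓ centralizerIn S B := by
      refine le_inf (le_trans ?_ hhyp) Cfsg.Agent.Lib.FusionHyper.hyp_le
      rw [Cfsg.Agent.Lib.FusionHyper.hyp_eq, Cfsg.Agent.Lib.FusionHyper.hyp_eq]
      apply Subgroup.closure_mono
      rintro y ⟨P, α, hP, hα, hαo, x, rfl⟩
      refine ⟨P, α, hP.trans hTS, ?_, hαo, x, rfl⟩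
      exact mem_autGroup_of_fmap (hCF _ _ (fmap_of_autGroup hP hα)) (fun x => (autFun_coe α x).symm)
    have key := ih _ hlt (centralizerIn S B) hCfin (hS.to_le hTS) (T ⊓ centralizerIn S B) C' C hCs' hCs hTC hhypC (by
      intro P f hf
      obtain ⟨h1, h2, g, hg, hgf, hgB⟩ := (hCi' P f).1 hf
      exact (hCi P f).2 ⟨h1, h2, g, hEF _ _ hg, hgf, hgB⟩) (by
      intro A f hAT hA hf
      obtain ⟨h1, h2, g, hg, hgf, hgB⟩ := (hCi A f).1 hf
      refine (hCi' A f).2 ⟨h1, h2, g, hsm _ _ (sup_le (hAT.trans inf_le_left) hBT)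
        (hA.sup hB (h1.trans inf_le_right)) hg, hgf, hgB⟩) rfl
    intro P f hBP hPC hf hfB
    have h1 : FMap C P f := by
      rw [hCi]
      refine ⟨hPC, fun x hx => mem_centralizerIn.2 ⟨hf.map_mem hx, ?_⟩, f, by rw [sup_eq_left.2 hBP]; exact hf,
        fun _ _ => rfl, hfB⟩
      rw [Subgroup.mem_centralizer_iff]
      intro b hb
      have h2 := Subgroup.mem_centralizer_iff.1 (hPC hx).2 b hb
      rw [← hfB b hb, ← hf.map_mul (hBP hb) hx, h2, hf.map_mul hx (hBP hb), hfB b hb]
    obtain ⟨-, -, g, hg, hgf, -⟩ := (hCi' P f).1 (key P f h1)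
    exact (hg.restrict le_sup_left).congr hgf
  have hle : F ≤ E := by
    refine alperin hS hF E fun P hP α hα => ?_
    have hPS : P ≤ S := by rcases hP with rfl | h1; exact le_rfl; exact h1.1.1
    have hPfin : Finite P := finite_of_le hPS
    have hPr : F.IsRadical p P := by rcases hP with rfl | h1; exact isRadical_top hS hF; exact isRadical_of_essential hS h1
    by_cases hcase : ∃ B ≤ P, B ≤ T ∧ P ≤ Subgroup.normalizer (B : Set Ω) ∧ Small q B ∧ ¬ F.IsCentral B
    · obtain ⟨B, hBP, hBT, hPB, hB, hBc⟩ := hcase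
      have hBS := hBP.trans hPS
      have hf := (fiso_autFun_iff hPS).2 hα
      obtain ⟨f, hfdef⟩ : ∃ f : Ω → Ω, f = autFun α := ⟨_, rfl⟩
      rw [← hfdef] at hf
      obtain ⟨B', hBB', hB'n⟩ := exists_fullyNormalized_conj F hBS
      obtain ⟨k, hk⟩ := isConj_iff_fiso.1 hBB'
      have hB'S := hB'n.1
      have hB'c : ¬ F.IsCentral B' := by
        intro hcen
        obtain ⟨j, hj, hj1, hj2⟩ := hk.symm
        have h1 : ∀ x ∈ B', j x = x := by
          intro x hx
          exact FusionFocal.fix_of_isCentral hcen hj.1 hx hx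
        have h2 : B' = B := by
          ext x
          rw [hj.2]
          constructor
          · intro hx; exact ⟨x, hx, h1 x hx⟩
          · rintro ⟨y, hy, rfl⟩; rw [h1 y hy]; exact hy
        exact hBc (h2 ▸ hcen)
      have hB'E : E.IsFullyNormalized B' := by
        refine ⟨hB'S, fun Q hQ => hB'n.2 Q ?_⟩
        obtain ⟨k, hk⟩ := isConj_iff_fiso.1 hQ
        exact isConj_iff_fiso.2 ⟨k, hEF _ _ hk.1, hk.2⟩
      have hB'T : B' ≤ T := by
        intro x hx
        obtain ⟨y, hy, rfl⟩ := (hk.2 x).1 hx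
        exact StronglyClosed.map_mem F hT hk.1 hy (hBT hy)
      have hconjE : E.IsConj B B' := isConj_iff_fiso.2 ⟨k, hsm B k hBT hB hk.1, hk.2⟩
      obtain ⟨ρ, hρ, hρN, hρm⟩ := exists_map_to_fullyNormalized hS hE hB'E hconjE
      obtain ⟨B₁, hB₁⟩ := (hf.1.restrict hBP).exists_iso
      have hB₁s : Small q B₁ := hB.map hB₁
      have hB₁T : B₁ ≤ T := by
        intro x hx
        obtain ⟨y, hy, rfl⟩ := (hB₁.2 x).1 hx
        exact StronglyClosed.map_mem F hT hB₁.1 hy (hBT hy)
      have hconjE₁ : E.IsConj B₁ B' := by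
        obtain ⟨j, hj, -⟩ := hB₁.symm
        have h1 := hj.trans hk
        exact isConj_iff_fiso.2 ⟨_, hsm B₁ _ hB₁T hB₁s h1.1, h1.2⟩
      obtain ⟨ρ₁, hρ₁, hρ₁N, hρ₁m⟩ := exists_map_to_fullyNormalized hS hE hB'E hconjE₁
      have hPN : P ≤ normalizerIn S B := le_inf hPS hPB
      have hPN₁ : P ≤ normalizerIn S B₁ := by
        intro x hx
        obtain ⟨y, hy, rfl⟩ := (hf.2 x).1 hx
        exact ⟨hPS (hf.mem hy), hB₁.map_normalizer hf.1 hBP hy (hPB hy)⟩
      have hB₁P : B₁ ≤ P := by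
        intro x hx
        obtain ⟨y, hy, rfl⟩ := (hB₁.2 x).1 hx
        exact hf.mem (hBP hy)
      obtain ⟨P', hP'⟩ := (hρN.restrict hPN).exists_iso
      obtain ⟨ρ', hρ', hρ'1, hρ'2⟩ := hP'.symm
      obtain ⟨P₁, hP₁⟩ := (hρ₁N.restrict hPN₁).exists_iso
      obtain ⟨ρ₁', hρ₁', hρ₁'1, hρ₁'2⟩ := hP₁.symm
      -- θ = ρ₁ f ρ⁻¹
      have hθ : FMap F P' (fun x => ρ₁ (f (ρ' x))) := by
        have h1 : FMap F P' (fun x => f (ρ' x)) := (hEF _ _ hρ'.1).comp hf.1 (fun x hx => hρ'.mem hx)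
        exact h1.comp (hEF _ _ hP₁.1) (fun x hx => hf.mem (hρ'.mem hx))
      have hB'P' : B' ≤ P' := by
        intro x hx
        obtain ⟨y, hy, rfl⟩ := (hρ.2 x).1 hx
        exact hP'.mem (hBP hy)
      have hP'N : P' ≤ normalizerIn S B' := by
        intro x hx
        obtain ⟨y, hy, rfl⟩ := (hP'.2 x).1 hx
        exact hρm y (hPN hy)
      have hθB : FIso F B' B' (fun x => ρ₁ (f (ρ' x))) := by
        refine (hθ.restrict hB'P').fiso_of_card hB'S (fun x hx => ?_) le_rfl
        obtain ⟨y, hy, rfl⟩ := (hρ.2 x).1 hx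
        show ρ₁ (f (ρ' (ρ y))) ∈ B'
        rw [hρ'1 y (hBP hy)]
        exact hρ₁.mem (hB₁.mem hy)
      have hθE := hN B' hB'T (hB.map hk) hB'n hB'c P' _ hB'P' hP'N hθ hθB
      have h1 : FMap E P (fun x => ρ₁ (f (ρ' (ρ x)))) := hP'.1.comp hθE (fun x hx => hP'.mem hx)
      have h2 : FMap E P (fun x => ρ₁' (ρ₁ (f (ρ' (ρ x))))) := h1.comp hρ₁'.1 (fun x hx => by
        show ρ₁ (f (ρ' (ρ x))) ∈ P₁
        rw [hρ'1 x hx]
        exact hP₁.mem (hf.mem hx))
      have h3 : FMap E P f := h2.congr (fun x hx => by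
        rw [hρ'1 x hx, hρ₁'1 _ (hf.mem hx)])
      rw [hfdef] at h3
      exact mem_autGroup_of_fmap h3 (fun x => (autFun_coe α x).symm)
    · push Not at hcase
      have hPp : IsPGroup p P := hS.to_le hPS
      have hp1 : IsPGroup p (F.autGroup P) := by
        refine isPGroup_of_coprime_trivial fun g hg => ?_
        have hg' : (orderOf (g : MulAut P)).Coprime p := by rw [Subgroup.orderOf_coe]; exact hg
        have hTn : (T.subgroupOf P).Normal := by
          refine ⟨fun t ht s => ?_⟩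
          exact (Subgroup.mem_normalizer_iff.1 (normalizes_of_stronglyClosed hT (hPS s.2)) t).1 ht
        refine Subtype.ext (Cfsg.Agent.Lib.H88Small.eq_one_of_small_in hPp hq (T.subgroupOf P) (g : MulAut P) hg' ?_ ?_)
        · intro x
          apply hhyp
          show (x : Ω)⁻¹ * ((g : MulAut P) x : P) ∈ _
          rw [Cfsg.Agent.Lib.FusionHyper.hyp_eq]
          exact Subgroup.subset_closure ⟨P, g, hPS, g.2, hg', x, rfl⟩
        intro B hBT hBn hBab hBq
        have h1 : F.IsCentral (B.map P.subtype) := by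
          refine hcase _ (Subgroup.map_subtype_le _) (by rintro _ ⟨y, hy, rfl⟩; exact hBT hy) ?_ ⟨?_, ?_⟩
          · intro x hx
            have key : ∀ x ∈ P, ∀ y ∈ B.map P.subtype, x * y * x⁻¹ ∈ B.map P.subtype := by
              rintro x hx _ ⟨y, hy, rfl⟩
              exact ⟨⟨x, hx⟩ * y * ⟨x, hx⟩⁻¹, hBn.conj_mem y hy _, rfl⟩
            rw [Subgroup.mem_normalizer_iff]
            intro y
            refine ⟨key x hx y, fun hy => ?_⟩
            have := key x⁻¹ (P.inv_mem hx) _ hy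
            have h2 : x⁻¹ * (x * y * x⁻¹) * x⁻¹⁻¹ = y := by group
            rwa [h2] at this
          · rintro _ ⟨x, hx, rfl⟩ _ ⟨y, hy, rfl⟩
            exact congrArg Subtype.val (hBab x hx y hy)
          · rintro _ ⟨x, hx, rfl⟩
            exact congrArg Subtype.val (hBq x hx)
        have h2 : ∀ (Q : Subgroup Ω) (f : Ω → Ω), FMap F Q f → ∀ x ∈ B, (x : Ω) ∈ Q → f x = x := fun Q f hf x hx hxQ =>
          FusionFocal.fix_of_isCentral h1 hf hxQ ⟨x, hx, rfl⟩
        constructor
        · intro x hx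
          rw [Subgroup.mem_center_iff]
          intro y
          apply Subtype.ext
          have h3 := h2 P _ (fmap_conj F hPS (hPS y.2)) x hx x.2
          exact mul_inv_eq_iff_eq_mul.1 h3
        · intro x hx
          apply Subtype.ext
          have h3 := h2 P _ (fmap_of_autGroup hPS g.2) x hx x.2
          rwa [autFun_coe] at h3
      have h1 : F.autGroup P ≤ Inn P := le_inn_of_radical hPr le_rfl hp1 (fun α hα κ hκ =>
        Subgroup.mul_mem _ (Subgroup.mul_mem _ hα hκ) (Subgroup.inv_mem _ hα))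
      exact inn_le_autGroup hPS (h1 hα)
  exact fun P f hf => le_iff_fmap.1 hle P f hf

end Cfsg.Agent.Lib.FusionSmallHyp
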