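import Mathlib
import Cfsg.Agent.Lib.FusionRes
import Cfsg.Agent.Lib.FusionPIdx
import Cfsg.Agent.Lib.FusionPPower

/-!
# Invariance of subsystems of `p`-power index; residual limits and subsystems of index prime to `p` (helper34)
-/

set_option autoImplicit false

universe u v

namespace Cfsg.Agent.Lib.H34Limit

open Cfsg Cfsg.FusionSystem Cfsg.Agent.Lib.FusionBasic Cfsg.Agent.Lib.FusionSat Cfsg.Agent.Lib.FusionNormal
  Cfsg.Agent.Lib.FusionInvar Cfsg.Agent.Lib.FusionTools Cfsg.Agent.Lib.FusionPP Cfsg.Agent.Lib.FusionStrong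
  Cfsg.Agent.Lib.FusionSys Cfsg.Agent.Lib.FusionFrat Cfsg.Agent.Lib.FusionSub Cfsg.Agent.Lib.FusionPrime
  Cfsg.Agent.Lib.FusionTC Cfsg.Agent.Lib.FusionRes Cfsg.Agent.Lib.FusionPIdx

section

variable {Ω : Type*} [Group Ω] {S T U : Subgroup Ω} {F : FusionSystem S} {D : FusionSystem T} {D₁ : FusionSystem U}
  {P Q R : Subgroup Ω} {a b f g : Ω → Ω} {p : ℕ}

/-- Conjugation by an `F`-automorphism of `T` preserves the subsystem of `p`-power index of an invariant system. -/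
theorem transport_index [Finite S] [Fact p.Prime] (hS : IsPGroup p S) (hD : Inv D F)
    (hD₁ : D₁.IsSaturated p) (hidx : D₁.HasPPowerIndexIn D p) (hU : F.StronglyClosed U) (ha : FIso F T T a) :
    ∀ (P : Subgroup Ω) (f : Ω → Ω), FMap D₁ P f → ∀ Q : Subgroup Ω, (∀ y, y ∈ Q ↔ ∃ x ∈ P, a x = y) →
      ∃ g, FMap D₁ Q g ∧ ∀ x ∈ P, g (a x) = a (f x) := by
  have hUT : U ≤ T := FusionPPower.subsystem_le hidx.1
  have hTS := hD.le
  have hUf : Finite U := finite_of_le hU.1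
  have haU : FIso F U U a := fiso_restrict (ha.1.restrict hUT) le_rfl
    fun x hx => StronglyClosed.map_mem F hU ha.1 (hUT hx) hx
  refine alperin_induction_cr (isPGroup_of_le hS hU.1) hD₁ (fun P f => ∀ Q : Subgroup Ω,
    (∀ y, y ∈ Q ↔ ∃ x ∈ P, a x = y) → ∃ g, FMap D₁ Q g ∧ ∀ x ∈ P, g (a x) = a (f x)) ?_ ?_ ?_ ?_ ?_
  · intro P f g _ ih hfg Q hQ
    obtain ⟨k, hk, h⟩ := ih Q hQ
    exact ⟨k, hk, fun x hx => by rw [h x hx, hfg x hx]⟩
  · intro P s hP hs Q hQ
    have hQT : Q ≤ U := fun y hy => by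
      obtain ⟨x, hx, rfl⟩ := (hQ y).1 hy
      exact haU.mem (hP hx)
    exact ⟨_, fmap_conj _ hQT (haU.mem hs), fun x hx => (haU.1.map_conj hs (hP hx)).symm⟩
  · intro P R f g hf ih1 hg ih2 hfR Q hQ
    obtain ⟨R', hR'⟩ := (haU.1.restrict hg.le).exists_iso
    obtain ⟨f', hf', h1⟩ := ih1 Q hQ
    obtain ⟨g', hg', h2⟩ := ih2 R' (fun y => hR'.2 y)
    refine ⟨fun x => g' (f' x), hf'.comp hg' fun y hy => ?_, fun x hx => ?_⟩
    · obtain ⟨x, hx, rfl⟩ := (hQ y).1 hy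
      rw [h1 x hx]
      exact hR'.mem (hfR x hx)
    · show g' (f' (a x)) = a (g (f x))
      rw [h1 x hx, h2 _ (hfR x hx)]
  · intro P R f g hf ih hg hgf hfg Q hQ
    obtain ⟨P', hP'⟩ := (haU.1.restrict hf.le_left).exists_iso
    obtain ⟨f', hf', h1⟩ := ih P' (fun y => hP'.2 y)
    have hf'' : FIso D₁ P' Q f' := by
      refine ⟨hf', fun y => ?_⟩
      rw [hQ y]
      constructor
      · rintro ⟨z, hz, rfl⟩
        exact ⟨a (g z), hP'.mem (hg.mem hz), by rw [h1 _ (hg.mem hz), hfg z hz]⟩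
      · rintro ⟨z, hz, rfl⟩
        obtain ⟨x, hx, rfl⟩ := hP'.mem_iff.1 hz
        exact ⟨f x, hf.mem hx, (h1 x hx).symm⟩
    obtain ⟨g', hg', h2, h3⟩ := hf''.symm
    refine ⟨g', hg'.1, fun x hx => ?_⟩
    have h4 := h2 (a (g x)) (hP'.mem (hg.mem hx))
    rw [h1 _ (hg.mem hx), hfg x hx] at h4
    exact h4
  · intro P f hPn hPc hPr hf Q hQ
    have hPU := hPn.1
    have hPa : FIso F P Q a := ⟨haU.1.restrict hPU, hQ⟩
    have hQU : Q ≤ U := fun y hy => by
      obtain ⟨x, hx, rfl⟩ := (hQ y).1 hy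
      exact haU.mem (hPU hx)
    have hsub₁ : D₁.IsSubsystemOf F := sub_trans hidx.1 hD.sub
    have hfull := fullyAutomized_of_fullyNormalized (isPGroup_of_le hS hU.1) hD₁ hPn
    have hle : D₁.autGroup P ≤ (D₁.autGroup Q).comap hPa.autEquiv.toMonoidHom := by
      refine FusionPPower.autGroup_le_of_pprime hfull ?_ ?_
      · intro α hα
        obtain ⟨s, hs, h1⟩ := mem_autInducedBy_iff.1 hα
        show hPa.autEquiv α ∈ D₁.autGroup Q
        refine mem_autGroup_of_fmap (fmap_conj D₁ hQU (haU.mem hs)) fun y => ?_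
        obtain ⟨x, hx, hxy⟩ := hPa.mem_iff.1 y.2
        have h2 : y = ⟨a x, hPa.mem hx⟩ := Subtype.ext hxy.symm
        rw [h2, hPa.autEquiv_coe α ⟨x, hx⟩, h1]
        exact haU.1.map_conj hs (hPU hx)
      · intro α hα ho
        show hPa.autEquiv α ∈ D₁.autGroup Q
        have h1 : hPa.autEquiv α ∈ D.autGroup Q :=
          autEquiv_mem (Inv.conjInv hD) ha (hPU.trans hUT) hPa (FusionPPower.autGroup_mono_of_subsystem hidx.1 hPU hα)
        refine FusionPPower.pprime_mem_of_index hidx hQU h1 ?_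
        rw [MulEquiv.orderOf_eq]
        exact ho
    have h1 := hle hf.equiv_mem_autGroup
    have h2 : hPa.autEquiv hf.equiv ∈ D₁.autGroup Q := h1
    refine ⟨autFun (hPa.autEquiv hf.equiv), (FMap_autFun_iff hQU).2 h2, fun x hx => ?_⟩
    rw [autFun_of_mem _ (hPa.mem hx), hPa.autEquiv_coe _ ⟨x, hx⟩]
    rfl

/-- The subsystem of `p`-power index of an invariant subsystem, over a strongly closed subgroup, is invariant. -/
theorem inv_index [Finite S] [Fact p.Prime] (hS : IsPGroup p S) (hD : Inv D F) (hDs : D.IsSaturated p)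
    (hD₁ : D₁.IsSaturated p) (hidx : D₁.HasPPowerIndexIn D p) (hU : F.StronglyClosed U) : Inv D₁ F := by
  have hUT : U ≤ T := FusionPPower.subsystem_le hidx.1
  have hTS := hD.le
  have hUf : Finite U := finite_of_le hU.1
  have hTf : Finite T := finite_of_le hTS
  have hTp := isPGroup_of_le hS hTS
  have hUD : D.StronglyClosed U := (stronglyClosed_iff D).2 ⟨hUT, fun P f hP hf x hx =>
    StronglyClosed.map_mem F hU (sub_fmap hD.sub hf) hx (hP hx)⟩
  -- `D₁` is invariant in `D`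
  have hinv : Inv D₁ D := by
    have hhyp := hidx.2.1
    have h1 := FusionPPower.eq_of_index (isPGroup_of_le hS hU.1) hD₁
      (Cfsg.Agent.Lib.FusionThmA2.sysA_saturated hTp hDs hUD (fam_ap hTp hDs hUD hhyp)) hidx
      (sysAP_index hTp hDs hUD hhyp)
    rw [h1]
    exact (isNormalIn_iff.1 (sysAP_normal hTp hDs hUD hhyp)).2.2.1
  refine ⟨sub_trans hidx.1 hD.sub, hU, ?_, ?_⟩
  · intro P Q a f ha hf hQ
    obtain ⟨b, c, hb, hc, h1⟩ := hD.frattini hUT ha.1
    have hcU : FIso D U U c := by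
      refine fiso_restrict hc le_rfl fun x hx => StronglyClosed.map_mem D hUD hc hx hx
    obtain ⟨R, hR⟩ := (hcU.1.restrict hf.le).exists_iso
    obtain ⟨g₁, hg₁, h2⟩ := hinv.conj hcU hf (fun y => hR.2 y)
    obtain ⟨g, hg, h3⟩ := transport_index hS hD hD₁ hidx hU hb R g₁ hg₁ Q (by
      intro y
      rw [hQ y]
      constructor
      · rintro ⟨x, hx, rfl⟩
        exact ⟨c x, hR.mem hx, (h1 x (hf.le hx)).symm⟩
      · rintro ⟨z, hz, rfl⟩
        obtain ⟨x, hx, rfl⟩ := hR.mem_iff.1 hz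
        exact ⟨x, hx, h1 x (hf.le hx)⟩)
    refine ⟨g, hg, fun x hx => ?_⟩
    rw [h1 x (hf.le hx), h3 _ (hR.mem hx), h2 x hx, h1 _ (hf.map_mem hx)]
  · intro P f hPU hf
    obtain ⟨a, f₁, ha, hf₁, h1⟩ := hD.frattini (hPU.trans hUT) hf
    obtain ⟨b, f₀, hb, hf₀, h2⟩ := hinv.frattini hPU hf₁
    have haU : FIso F U U a := fiso_restrict (ha.1.restrict hUT) le_rfl
      fun x hx => StronglyClosed.map_mem F hU ha.1 (hUT hx) hx
    exact ⟨fun x => a (b x), f₀, (sub_fiso hD.sub hb).trans haU, hf₀, fun x hx => by rw [h1 x hx, h2 x hx]⟩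

/-- An invariant subsystem over the same subgroup as an invariant saturated system has index prime to `p` in it. -/
theorem primeIndex_of_inv [Finite S] [Fact p.Prime] (hS : IsPGroup p S) (hF : F.IsSaturated p) (hD : Inv D F)
    (hDs : D.IsSaturated p) {R₁ : FusionSystem T} (hR : Inv R₁ F) (hRD : R₁.IsSubsystemOf D) :
    R₁.HasPrimeToPIndexIn D p := by
  have hT := hD.closed
  have hTf : Finite T := finite_of_le hT.1
  have hTp := isPGroup_of_le hS hT.1
  refine ⟨hRD, fun P hP => ?_⟩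
  show OP D p P ≤ R₁.autGroup P
  rw [op_le_iff]
  rintro α hα ⟨k, hk⟩
  obtain ⟨P', ψ, hP', hψ, -, -⟩ := exists_fullyNormalized_map hS hF (hP.trans hT.1)
  have hP'T : P' ≤ T := by
    intro y hy
    obtain ⟨x, hx, rfl⟩ := hψ.mem_iff.1 hy
    exact StronglyClosed.map_mem F hT hψ.1 hx (hP hx)
  obtain ⟨φ, hφ, e1, e2⟩ := hψ.symm
  have hαi := (fiso_autFun_iff hP).2 hα
  have h1 := (Inv.strong hD).transport hP hψ e1 hαi
  -- the transported automorphism
  obtain ⟨α', hα', h2⟩ := exists_aut_of_fmap h1 (fun y hy => hψ.mem (autFun_mem α (hφ.mem hy)))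
  have hα'e : α' = hψ.autEquiv α := by
    apply MulEquiv.ext
    intro y
    obtain ⟨x, rfl⟩ := hψ.equiv.surjective y
    apply Subtype.ext
    rw [h2, FIso.autEquiv_apply_apply, FIso.equiv_apply, FIso.equiv_apply]
    show ψ (autFun α (φ (ψ x))) = _
    rw [e1 _ x.2, autFun_coe]
  have ho : orderOf α' = p ^ k := by rw [hα'e, MulEquiv.orderOf_eq]; exact hk
  have hPn : D.IsFullyNormalized P' := fullyNormalized_sub hS hF hT hD.sub hP'T hP'
  have hPa := fullyAutomized_of_fullyNormalized hTp hDs hPn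
  obtain ⟨χ, hχ, h3⟩ := exists_conj_le_autInducedBy hPa (Subgroup.zpowers α')
    (by rw [Subgroup.zpowers_le]; exact hα') (by
      rw [IsPGroup.iff_orderOf]
      rintro ⟨x, hx⟩
      rw [Subgroup.orderOf_mk]
      have h4 : orderOf x ∣ p ^ k := by rw [← ho]; exact orderOf_dvd_of_mem_zpowers hx
      obtain ⟨j, -, hj⟩ := (Nat.dvd_prime_pow Fact.out).1 h4
      exact ⟨j, hj⟩)
  have h4 : χ * α' * χ⁻¹ ∈ R₁.autGroup P' :=
    autInducedBy_le_autGroup hP'T le_rfl (h3 _ (Subgroup.mem_zpowers _))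
  have hχF : χ ∈ F.autGroup P' := sub_autGroup hD.sub hP'T hχ
  have h5 := (Inv.strong hR).autGroup_normal hT.1 hP'T χ⁻¹ (Subgroup.inv_mem _ hχF) _ h4
  have h6 : χ⁻¹ * (χ * α' * χ⁻¹) * χ⁻¹⁻¹ = α' := by group
  rw [h6] at h5
  have hα'i := (fiso_autFun_iff hP'T).2 h5
  have h7 := (Inv.strong hR).transport hP'T hφ e2 hα'i
  refine mem_autGroup_of_fmap h7 fun x => ?_
  show ((α x : P) : Ω) = φ (autFun α' (ψ x))
  rw [autFun_of_mem α' (hψ.mem x.2), h2]
  show _ = φ (ψ (autFun α (φ (ψ x))))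
  rw [e1 _ x.2, e1 _ (autFun_mem α x.2), autFun_coe]

/-- Systems of index prime to `p` have the same `p'`-residual. -/
theorem res_eq_of_primeIndex [Finite S] [Fact p.Prime] (hS : IsPGroup p S) (hF : F.IsSaturated p) {R₁ : FusionSystem S}
    (hR : R₁.IsSaturated p) (hRF : R₁.HasPrimeToPIndexIn F p) : res R₁ p = res F p := by
  have h1 := res_isResidual hS hF
  have h2 := res_isResidual hS hR
  have hop : ∀ P : Subgroup Ω, P ≤ S → OP F p P ≤ OP R₁ p P := by
    intro P hP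
    rw [op_le_iff]
    rintro α hα ⟨k, hk⟩
    exact mem_op (k := k) (hRF.2 P hP (mem_op hα hk)) hk
  have hop' : ∀ P : Subgroup Ω, P ≤ S → OP R₁ p P ≤ OP F p P := by
    intro P hP
    rw [op_le_iff]
    rintro α hα ⟨k, hk⟩
    exact mem_op (k := k) (sub_autGroup hRF.1 hP hα) hk
  have h3 : (res F p).IsSubsystemOf (res R₁ p) :=
    h1.2.2 _ h2.1 ⟨sub_trans h2.2.1.1 hRF.1, fun P hP => (hop P hP).trans (h2.2.1.2 P hP)⟩
  have h4 : (res R₁ p).IsSubsystemOf (res F p) :=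
    h2.2.2 _ h1.1 ⟨h1.2.2 _ hR hRF, fun P hP => (hop' P hP).trans (h1.2.1.2 P hP)⟩
  rw [fusion_eq_iff_fmap]
  intro P f
  exact ⟨fun h => sub_fmap h4 h, fun h => sub_fmap h3 h⟩

end

end Cfsg.Agent.Lib.H34Limit
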