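import Mathlib
import Cfsg.Agent.Lib.H34Limit
import Cfsg.Agent.Lib.FusionHyper

/-!
# Residual limits and subsystems of index prime to `p` (helper34)
-/

set_option autoImplicit false

universe u v

namespace Cfsg.Agent.Lib.H34Limit

open Cfsg Cfsg.FusionSystem Cfsg.Agent.Lib.FusionBasic Cfsg.Agent.Lib.FusionSat Cfsg.Agent.Lib.FusionNormal
  Cfsg.Agent.Lib.FusionInvar Cfsg.Agent.Lib.FusionTools Cfsg.Agent.Lib.FusionPP Cfsg.Agent.Lib.FusionStrong
  Cfsg.Agent.Lib.FusionSys Cfsg.Agent.Lib.FusionFrat Cfsg.Agent.Lib.FusionSub Cfsg.Agent.Lib.FusionPrime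
  Cfsg.Agent.Lib.FusionTC Cfsg.Agent.Lib.FusionRes Cfsg.Agent.Lib.FusionPIdx Cfsg.Agent.Lib.FusionPPower

section

variable {Ω : Type*} [Group Ω] {S T U : Subgroup Ω} {F : FusionSystem S} {D : FusionSystem T} {D₁ : FusionSystem U}
  {P Q R : Subgroup Ω} {a b f g : Ω → Ω} {p : ℕ}

theorem inv_refl (F : FusionSystem S) : Inv F F where
  sub := sub_refl F
  closed := stronglyClosed_top F
  conj := by
    intro P Q a f ha hf hQ
    obtain ⟨b, hb, h1, h2⟩ := ha.symm
    have hQS : Q ≤ S := fun y hy => by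
      obtain ⟨x, hx, rfl⟩ := (hQ y).1 hy
      exact ha.mem (hf.le hx)
    have hbQ : ∀ y ∈ Q, b y ∈ P := by
      intro y hy
      obtain ⟨x, hx, rfl⟩ := (hQ y).1 hy
      rw [h1 x (hf.le hx)]; exact hx
    refine ⟨fun y => a (f (b y)), ((hb.1.restrict hQS).comp hf hbQ).comp ha.1 (fun y hy => hf.map_mem (hbQ y hy)),
      fun x hx => ?_⟩
    show a (f (b (a x))) = a (f x)
    rw [h1 x (hf.le hx)]
  frattini := by
    intro P f _ hf
    exact ⟨fun x => x, f, FIso.refl F le_rfl, hf, fun _ _ => rfl⟩

theorem hyp_closed [Finite S] [Fact p.Prime] (hS : IsPGroup p S) (hF : F.IsSaturated p) :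
    F.StronglyClosed (F.hyperfocalSubgroup p) := by
  rw [stronglyClosed_iff]
  refine ⟨FusionHyper.hyp_le, fun P f hP hf x hx => ?_⟩
  obtain ⟨s, hs, h1⟩ := FusionHyper.exists_conj_mod_hyp hS hF P f hf
  have h2 := Subgroup.mul_mem _ (FusionHyper.conj_mem_hyp (F := F) (p := p) hs (hP hx)) (h1 x hx)
  rwa [mul_inv_cancel_left] at h2

theorem res_eq_self [Finite S] [Fact p.Prime] (hS : IsPGroup p S) (hF : F.IsSaturated p)
    (h : F.autGroup S ≤ (res F p).autGroup S) : res F p = F := by
  rw [fusion_eq_iff_fmap]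
  intro P f
  refine ⟨fun h => sub_fmap res_sub h, fun hf => ?_⟩
  obtain ⟨a, f₀, ha, hf₀, h1⟩ := gen0_frat hS hF P f hf
  have h2 := h ha.equiv_mem_autGroup
  have h3 := (FMap_autFun_iff le_rfl).2 h2
  refine ((gen0_sub_res hf₀).comp h3 (fun x hx => hf₀.map_mem hx)).congr fun x hx => ?_
  rw [h1 x hx, autFun_of_mem _ (hf₀.map_mem hx)]
  rfl

theorem card_aut_res_lt [Finite S] [Fact p.Prime] (hS : IsPGroup p S) (hF : F.IsSaturated p)
    (h : ¬ F.IsPPrimeResidual p F) : Nat.card ((res F p).autGroup S) < Nat.card (F.autGroup S) := by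
  have hle : (res F p).autGroup S ≤ F.autGroup S := sub_autGroup res_sub le_rfl
  have hfin : Finite (F.autGroup S) := inferInstance
  rw [← not_le]
  intro hc
  have h1 : (res F p).autGroup S = F.autGroup S := Subgroup.eq_of_le_of_card_ge hle hc
  apply h
  have h2 := res_isResidual hS hF
  rwa [res_eq_self hS hF h1.ge] at h2

theorem exists_limit [Fact p.Prime] (n : ℕ) : ∀ (m : ℕ) {S : Subgroup Ω} [Finite S] (_ : IsPGroup p S) (F : FusionSystem S)
    (_ : F.IsSaturated p), Nat.card S = n → Nat.card (F.autGroup S) = m →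
    ∃ (U : Subgroup Ω) (L : FusionSystem U), L.IsResidualLimitOf F p := by
  induction n using Nat.strong_induction_on with
  | _ n ihn =>
  intro m
  induction m using Nat.strong_induction_on with
  | _ m ihm =>
    intro S _ hS F hF hn hm
    by_cases hst : F.hyperfocalSubgroup p = S ∧ F.IsPPrimeResidual p F
    · exact ⟨S, F, .stable F p hst.1 hst.2⟩
    have hHS : F.hyperfocalSubgroup p ≤ S := hyperfocal_le
    obtain ⟨D, hDs, hDi⟩ := exists_index (Nat.card S) hS F hF hHS le_rfl rfl
    have hHf : Finite (F.hyperfocalSubgroup p) := finite_of_le hHS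
    have hHp : IsPGroup p (F.hyperfocalSubgroup p) := isPGroup_of_le hS hHS
    have hres := res_isResidual hHp hDs
    suffices h : ∃ (U : Subgroup Ω) (L : FusionSystem U), L.IsResidualLimitOf (res D p) p by
      obtain ⟨U, L, hL⟩ := h
      exact ⟨U, L, .step F p D (res D p) ⟨hDs, hDi⟩ hres hL⟩
    rcases eq_or_lt_of_le hHS with h | h
    · have hnres : ¬ F.IsPPrimeResidual p F := fun h' => hst ⟨h, h'⟩
      have hlt := card_aut_res_lt hS hF hnres
      have key : ∀ (H : Subgroup Ω) (_ : H = S) (D : FusionSystem H), D.IsSaturated p → D.HasPPowerIndexIn F p →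
          ∃ (U : Subgroup Ω) (L : FusionSystem U), L.IsResidualLimitOf (res D p) p := by
        intro H hH
        subst hH
        intro D h1 h2
        have h3 : D = F := eq_of_index hS h1 hF h2 (index_self F)
        subst h3
        exact ihm _ (hm ▸ hlt) hS _ (res_saturated hS h1) hn rfl
      exact key _ h D hDs hDi
    · exact ihn _ (hn ▸ card_lt h) _ hHp _ hres.1 rfl rfl

theorem limit_sub {L : FusionSystem U} (h : L.IsResidualLimitOf F p) : L.IsSubsystemOf F := by
  induction h with
  | stable F p _ _ => exact sub_refl F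
  | step F p D D' hD hD' _ ih => exact sub_trans ih (sub_trans hD'.2.1.1 hD.2.1)

/-- Residual limits do not change when passing to the `p'`-residual. -/
theorem limit_res_aux [Fact p.Prime] (n : ℕ) : ∀ {S : Subgroup Ω} [Finite S] (_ : IsPGroup p S) (F : FusionSystem S)
    (_ : F.IsSaturated p), Nat.card S = n → ∀ {U V : Subgroup Ω} {Finf : FusionSystem U} {Rinf : FusionSystem V},
    Finf.IsResidualLimitOf F p → Rinf.IsResidualLimitOf (res F p) p → Same Finf Rinf := by
  induction n using Nat.strong_induction_on with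
  | _ n ih =>
    intro S _ hS F hF hn U V Finf Rinf hFinf hRinf
    cases hFinf with
    | stable _ _ h1 h2 =>
      have h3 : F = res F p := eq_res hS hF h2
      exact limit_unique_aux (.stable F p h1 h2) hS hRinf ⟨rfl, fun P => by rw [← h3]⟩
    | step _ _ D D' hD hD' hlim =>
      have hHS : F.hyperfocalSubgroup p ≤ S := hyperfocal_le
      have hHf : Finite (F.hyperfocalSubgroup p) := finite_of_le hHS
      have hHp : IsPGroup p (F.hyperfocalSubgroup p) := isPGroup_of_le hS hHS
      have hD'e : D' = res D p := eq_res hHp hD.1 hD'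
      have hFr := res_saturated hS hF
      rcases eq_or_lt_of_le hHS with h | h
      · have key : ∀ (H : Subgroup Ω) (_ : H = S) (D : FusionSystem H), D.IsSaturated p → D.HasPPowerIndexIn F p →
            Same (res D p) (res F p) := by
          intro H hH
          subst hH
          intro D h1 h2
          have h3 : D = F := eq_of_index hS h1 hF h2 (index_self F)
          rw [h3]
          exact Same.refl _
        rw [hD'e] at hlim
        exact limit_unique_aux hlim hS hRinf (key _ h D hD.1 hD.2)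
      · obtain ⟨S₁, hS₁⟩ : ∃ S₁, S₁ = F.hyperfocalSubgroup p := ⟨_, rfl⟩
        have hRh : (res F p).hyperfocalSubgroup p ≤ F.hyperfocalSubgroup p := hyperfocal_mono res_sub
        obtain ⟨R₁, hR₁s, hR₁i⟩ := exists_index (Nat.card S) hS (res F p) hFr hHS hRh rfl
        obtain ⟨X, Xinf, hX⟩ := exists_limit _ _ hHp R₁ hR₁s rfl rfl
        have hs1 : Same Rinf Xinf := limit_of_index hS hFr hR₁s hR₁i hRinf hX
        have hHc := hyp_closed hS hF
        have hDinv : Inv D F := inv_index hS (inv_refl F) hF hD.1 hD.2 hHc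
        have hR₁inv : Inv R₁ F := inv_index hS (res_inv hS hF (inv_refl F)) hFr hR₁s hR₁i hHc
        have hR₁D : R₁.IsSubsystemOf D := subsystem_of_pprime hHp hR₁s le_rfl fun P hP α hα ho =>
          pprime_mem_of_index hD.2 hP (sub_autGroup (sub_trans hR₁i.1 res_sub) hP hα) ho
        have hpi := primeIndex_of_inv hS hF hDinv hD.1 hR₁inv hR₁D
        have hre := res_eq_of_primeIndex hHp hD.1 hR₁s hpi
        have hlim' : Finf.IsResidualLimitOf (res R₁ p) p := by rw [hre, ← hD'e]; exact hlim
        have hs2 := ih _ (hn ▸ card_lt h) hHp R₁ hR₁s rfl hX hlim'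
        exact hs2.symm.trans hs1.symm

/-- Residual limits of a saturated subsystem of index prime to `p` agree with those of the system. -/
theorem limit_primeIndex [Finite S] [Fact p.Prime] (hS : IsPGroup p S) (hF : F.IsSaturated p) {R₁ : FusionSystem S}
    (hR : R₁.IsSaturated p) (hRF : R₁.HasPrimeToPIndexIn F p) {U V : Subgroup Ω} {Finf : FusionSystem U}
    {Rinf : FusionSystem V} (h1 : Finf.IsResidualLimitOf F p) (h2 : Rinf.IsResidualLimitOf R₁ p) : Same Finf Rinf := by
  obtain ⟨X, Xinf, hX⟩ := exists_limit _ _ hS (res F p) (res_saturated hS hF) rfl rfl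
  have h3 := limit_res_aux _ hS F hF rfl h1 hX
  have h4 : Xinf.IsResidualLimitOf (res R₁ p) p := by
    rw [res_eq_of_primeIndex hS hF hR hRF]; exact hX
  have h5 := limit_res_aux _ hS R₁ hR rfl h2 h4
  exact h3.trans h5.symm

end

end Cfsg.Agent.Lib.H34Limit
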