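import Mathlib
import Cfsg.Agent.Lib.FusionRes
import Cfsg.Agent.Lib.FusionSmall
import Cfsg.Agent.Lib.FusionCentricH85
import Cfsg.Agent.Lib.FusionQuot

/-!
# Subsystems of index prime to `p` defined by a character of `Aut_F(T)` trivial on `Aut_E(T)` (helper34)
-/

set_option autoImplicit false

universe u v

namespace Cfsg.Agent.Lib.H34PIndex

open Cfsg Cfsg.FusionSystem Cfsg.Agent.Lib.FusionBasic Cfsg.Agent.Lib.FusionSat Cfsg.Agent.Lib.FusionNormal
  Cfsg.Agent.Lib.FusionInvar Cfsg.Agent.Lib.FusionTools Cfsg.Agent.Lib.FusionPP Cfsg.Agent.Lib.FusionStrong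
  Cfsg.Agent.Lib.FusionSys Cfsg.Agent.Lib.FusionFrat Cfsg.Agent.Lib.FusionSub Cfsg.Agent.Lib.FusionPrime
  Cfsg.Agent.Lib.FusionTC Cfsg.Agent.Lib.FusionRes

section

variable {Ω : Type*} [Group Ω] {S T : Subgroup Ω} {F : FusionSystem S} {E : FusionSystem T} {P P' Q R M V X Y Z : Subgroup Ω}
  {a b f g h : Ω → Ω} {p : ℕ} {Δ : Type*} [Group Δ] {χ : ↥(F.autGroup T) →* Δ} {d d' : Δ}

/-- the standing hypotheses -/
structure Ctx (E : FusionSystem T) (p : ℕ) (χ : ↥(F.autGroup T) →* Δ) : Prop where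
  hS : IsPGroup p S
  hF : F.IsSaturated p
  hEs : E.IsSaturated p
  hE : Inv E F
  hΔ : (Nat.card Δ).Coprime p
  hker : ∀ a : ↥(F.autGroup T), (a : MulAut T) ∈ E.autGroup T → χ a = 1

/-- `f = a ∘ f₀` on `P`, with `f₀` in `E` and `χ a = d` -/
def ThT (χ : ↥(F.autGroup T) →* Δ) (E : FusionSystem T) (P : Subgroup Ω) (f : Ω → Ω) (d : Δ) : Prop :=
  ∃ (a : ↥(F.autGroup T)) (f₀ : Ω → Ω), FMap E P f₀ ∧ (∀ x ∈ P, f x = autFun (a : MulAut T) (f₀ x)) ∧ χ a = d

theorem ThT.restrict (h : ThT χ E Q f d) (hPQ : P ≤ Q) : ThT χ E P f d := by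
  obtain ⟨a, f₀, h1, h2, h3⟩ := h
  exact ⟨a, f₀, h1.restrict hPQ, fun x hx => h2 x (hPQ hx), h3⟩

theorem ThT.congr (h : ThT χ E P f d) (hfg : ∀ x ∈ P, f x = g x) : ThT χ E P g d := by
  obtain ⟨a, f₀, h1, h2, h3⟩ := h
  exact ⟨a, f₀, h1, fun x hx => by rw [← hfg x hx, h2 x hx], h3⟩

theorem tht_of_sub (hf : FMap E P f) : ThT χ E P f 1 :=
  ⟨1, f, hf, fun _ hx => (autFun_one (hf.map_mem hx)).symm, map_one χ⟩

theorem ThT.le (h : ThT χ E P f d) : P ≤ T := by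
  obtain ⟨a, f₀, h1, -⟩ := h
  exact h1.le

theorem ThT.mem (h : ThT χ E P f d) {x : Ω} (hx : x ∈ P) : f x ∈ T := by
  obtain ⟨a, f₀, h1, h2, -⟩ := h
  rw [h2 x hx]
  exact autFun_mem _ (h1.map_mem hx)

theorem tht_aut (a : ↥(F.autGroup T)) : ThT χ E T (autFun (a : MulAut T)) (χ a) :=
  ⟨a, fun x => x, fmap_id E le_rfl, fun _ _ => rfl, rfl⟩

theorem ThT.comp (c : Ctx E p χ) (h : ThT χ E P f d) (hfQ : ∀ x ∈ P, f x ∈ Q) (h' : ThT χ E Q g d') :
    ThT χ E P (fun x => g (f x)) (d' * d) := by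
  obtain ⟨a, f₀, h1, h2, h3⟩ := h
  obtain ⟨b, g₀, k1, k2, k3⟩ := h'
  have hTS := c.hE.closed.1
  have hai := (fiso_autFun_iff (F := F) hTS).2 (Subgroup.inv_mem _ a.2)
  obtain ⟨Q', hQ'⟩ := (hai.1.restrict k1.le).exists_iso
  obtain ⟨g₁, hg₁, h6⟩ := c.hE.conj hai k1 (fun y => hQ'.2 y)
  have h7 : ∀ x ∈ P, f₀ x = autFun ((a : MulAut T)⁻¹) (f x) := fun x hx => by
    rw [h2 x hx, autFun_inv_apply _ (h1.map_mem hx)]
  refine ⟨b * a, fun x => g₁ (f₀ x), h1.comp hg₁ (fun x hx => (hQ'.2 _).2 ⟨f x, hfQ x hx, (h7 x hx).symm⟩),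
    fun x hx => ?_, by rw [map_mul, h3, k3]⟩
  have hfT : f x ∈ T := k1.le (hfQ x hx)
  show g (f x) = autFun ((b : MulAut T) * (a : MulAut T)) (g₁ (f₀ x))
  rw [h7 x hx, h6 _ (hfQ x hx), autFun_mul _ _ (autFun_mem _ (k1.map_mem (hfQ x hx))),
    autFun_apply_inv _ (k1.map_mem (hfQ x hx)), k2 _ (hfQ x hx)]

theorem ThT.inv (c : Ctx E p χ) (hf : FIso F P Q f) (hfg : ∀ x ∈ P, g (f x) = x) (h : ThT χ E P f d) :
    ThT χ E Q g d⁻¹ := by
  obtain ⟨a, f₀, h2, h3, h4⟩ := h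
  have hTS := c.hE.closed.1
  have h1 := (fiso_autFun_iff (F := F) hTS).2 a.2
  obtain ⟨R, hR⟩ := h2.exists_iso
  obtain ⟨k, hk, k1, k2⟩ := hR.symm
  have hRQ : ∀ y, y ∈ Q ↔ ∃ x ∈ R, autFun (a : MulAut T) x = y := by
    intro y
    rw [hf.mem_iff]
    constructor
    · rintro ⟨x, hx, rfl⟩
      exact ⟨f₀ x, hR.mem hx, (h3 x hx).symm⟩
    · rintro ⟨z, hz, rfl⟩
      obtain ⟨x, hx, rfl⟩ := hR.mem_iff.1 hz
      exact ⟨x, hx, h3 x hx⟩
  obtain ⟨l, hl, h6⟩ := c.hE.conj h1 hk.1 hRQ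
  refine ⟨a⁻¹, l, hl, fun y hy => ?_, by rw [map_inv, h4]⟩
  obtain ⟨x, hx, rfl⟩ := hf.mem_iff.1 hy
  show g (f x) = autFun ((a : MulAut T)⁻¹) (l (f x))
  rw [hfg x hx, h3 x hx, h6 _ (hR.mem hx), k1 x hx, autFun_inv_apply _ (h2.le hx)]

theorem exists_tht (c : Ctx E p χ) (hPT : P ≤ T) (hf : FMap F P f) : ∃ d, ThT χ E P f d := by
  obtain ⟨a, f₀, ha, hf₀, h⟩ := c.hE.frattini hPT hf
  refine ⟨_, ⟨ha.equiv, ha.equiv_mem_autGroup⟩, f₀, hf₀, fun x hx => ?_, rfl⟩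
  rw [h x hx]
  exact (autFun_of_mem (P := T) ha.equiv (hf₀.map_mem hx)).symm

theorem ThT.iter (c : Ctx E p χ) (h : ThT χ E P f d) (hPP : ∀ x ∈ P, f x ∈ P) (n : ℕ) : ThT χ E P (f^[n]) (d ^ n) := by
  induction n with
  | zero =>
    rw [pow_zero]
    exact tht_of_sub (fmap_id E h.le)
  | succ n ih =>
    have hit : ∀ x ∈ P, f^[n] x ∈ P := by
      intro x hx
      clear ih
      induction n with
      | zero => exact hx
      | succ n ih => rw [Function.iterate_succ_apply']; exact hPP _ ih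
    rw [pow_succ']
    exact (ih.comp c hit h).congr fun x _ => by rw [Function.iterate_succ_apply']

theorem eq_one_of_pow (hΔ : (Nat.card Δ).Coprime p) {k : ℕ} (h : d ^ p ^ k = 1) : d = 1 := by
  have h1 : orderOf d ∣ p ^ k := orderOf_dvd_of_pow_eq_one h
  have h2 : orderOf d ∣ Nat.card Δ := orderOf_dvd_natCard d
  exact orderOf_eq_one_iff.1 (Nat.eq_one_of_dvd_coprimes (Nat.Coprime.pow_right k hΔ) h2 h1)

/-- A map which is the identity on `Q` and moves everything by elements of `Q`. -/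
theorem iter_of_fix (hβ : FMap F V a) (hQV : Q ≤ V) (h1 : ∀ x ∈ Q, a x = x) (h2 : ∀ m ∈ V, m⁻¹ * a m ∈ Q) (n : ℕ) {m : Ω}
    (hm : m ∈ V) : a^[n] m = m * (m⁻¹ * a m) ^ n := by
  induction n with
  | zero => simp
  | succ n ih =>
    have h3 : (m⁻¹ * a m) ^ n ∈ Q := Q.pow_mem (h2 m hm) n
    rw [Function.iterate_succ_apply', ih, hβ.map_mul hm (hQV h3), h1 _ h3, pow_succ', ← mul_assoc m, mul_inv_cancel_left]

/-- Uniqueness of the value on `T`-centric subgroups. -/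
theorem ThT.unique [Finite S] [Fact p.Prime] (c : Ctx E p χ) (n : ℕ) : ∀ P : Subgroup Ω, TC F T P → Nat.card T - Nat.card P ≤ n →
    ∀ (f : Ω → Ω) (d d' : Δ), ThT χ E P f d → ThT χ E P f d' → d = d' := by
  have hT := c.hE.closed
  have hTS := hT.1
  have hTf : Finite T := finite_of_le hTS
  have hTp : IsPGroup p T := isPGroup_of_le c.hS hTS
  induction n with
  | zero =>
    intro P hP hn
    have hPT : P = T := by
      refine Subgroup.eq_of_le_of_card_ge hP.1 ?_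
      omega
    subst hPT
    rintro f d d' ⟨a, f₀, h1, h2, rfl⟩ ⟨b, g₀, k1, k2, rfl⟩
    have h3 : FMap E P (autFun ((b : MulAut P)⁻¹ * (a : MulAut P))) := by
      obtain ⟨R, hR⟩ := h1.exists_iso
      have hRP : R = P := Subgroup.eq_of_le_of_card_ge hR.le_right (by rw [hR.card_eq])
      subst hRP
      obtain ⟨k, hk, k3, k4⟩ := hR.symm
      refine (hk.1.comp k1 (fun x hx => hk.mem hx)).congr fun y hy => ?_
      obtain ⟨x, hx, rfl⟩ := hR.mem_iff.1 hy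
      rw [k3 x hx, autFun_mul _ _ (hR.mem hx), ← h2 x hx, k2 x hx, autFun_inv_apply _ (k1.map_mem hx)]
    have h4 := c.hker (b⁻¹ * a) ((FMap_autFun_iff le_rfl).1 h3)
    rw [map_mul, map_inv, inv_mul_eq_one] at h4
    exact h4.symm
  | succ n ih =>
    intro P hP hn f d d'
    rintro ⟨a, f₀, h1, h2, rfl⟩ ⟨a', g₀, k1, k2, rfl⟩
    obtain ⟨R, hR⟩ := h1.exists_iso
    obtain ⟨k, hk, k3, k4⟩ := hR.symm
    have hRT : R ≤ T := hR.le_right
    have hRTC : TC F T R := hP.conj hT (sub_fiso c.hE.sub hR).isConj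
    set b : ↥(F.autGroup T) := a'⁻¹ * a with hb
    have hbR : FMap E R (autFun (b : MulAut T)) := by
      refine (hk.1.comp k1 (fun x hx => hk.mem hx)).congr fun y hy => ?_
      obtain ⟨x, hx, rfl⟩ := hR.mem_iff.1 hy
      show g₀ (k (f₀ x)) = autFun ((a' : MulAut T)⁻¹ * (a : MulAut T)) (f₀ x)
      rw [k3 x hx, autFun_mul _ _ (h1.map_mem hx), ← h2 x hx, k2 x hx, autFun_inv_apply _ (k1.map_mem hx)]
    have goal : χ b = 1 := by
      by_cases hRT' : R = T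
      · apply c.hker
        rw [← FMap_autFun_iff le_rfl]
        exact hbR.restrict hRT'.ge
      have hRlt : R < T := lt_of_le_of_ne hRT hRT'
      have hbi := (fiso_autFun_iff (F := F) hTS).2 b.2
      obtain ⟨R', hR'⟩ := hbR.exists_iso
      obtain ⟨Q, η, hQ, hη, hηN, hηm⟩ := exists_fullyNormalized_map hTp c.hEs hR'.le_right
      have hQT : Q ≤ T := hQ.1
      have hψ : FIso E R Q (fun x => η (autFun (b : MulAut T) x)) := hR'.trans hη
      have hV := lt_normalizerIn (S := T) hTp (R := T) le_rfl hRlt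
      set V := normalizerIn T R with hVdef
      have hVT : V ≤ T := normalizerIn_le T R
      -- `b` maps `V` into the normalizer of `R'`
      have hbV : ∀ t ∈ V, autFun (b : MulAut T) t ∈ normalizerIn T R' := by
        intro t ht
        refine ⟨autFun_mem _ (hVT ht), FusionQuot.mem_normalizer_of_forall hR'.le_right (autFun_mem _ (hVT ht)) ?_⟩
        intro y hy
        obtain ⟨x, hx, rfl⟩ := hR'.mem_iff.1 hy
        rw [← hbi.1.map_conj (hVT ht) (hRT hx)]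
        exact hR'.mem ((Subgroup.mem_normalizer_iff.1 ht.2 x).1 hx)
      obtain ⟨ψ', hψ', hψ'e⟩ := (isReceptive_iff.1 (receptive_of_fullyNormalized hTp c.hEs hQ)).2 R _ hψ V hV.le hVT (by
        intro t ht
        refine ⟨ht.2, η (autFun (b : MulAut T) t), hηN.map_mem (hbV t ht), fun x hx => ?_⟩
        rw [hbi.1.map_conj (hVT ht) (hRT hx), hηN.map_conj (hbV t ht) (le_normalizerIn hR'.le_right (hR'.mem hx))])
      have hth : ThT χ E V (fun x => η (autFun (b : MulAut T) x)) (1 * χ b) :=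
        ((tht_aut b).restrict hVT).comp c hbV (tht_of_sub hηN)
      have hγ : FMap F V (fun x => η (autFun (b : MulAut T) x)) :=
        (hbi.1.restrict hVT).comp (sub_fmap c.hE.sub hηN) hbV
      obtain ⟨V₂, hV₂⟩ := hγ.exists_iso
      obtain ⟨l, hl, l1, l2⟩ := hV₂.symm
      have hQV₂ : Q ≤ V₂ := by
        intro y hy
        obtain ⟨x, hx, rfl⟩ := hψ.mem_iff.1 hy
        exact hV₂.mem (hV.le hx)
      have hV₂T : V₂ ≤ T := by
        intro y hy
        obtain ⟨x, hx, rfl⟩ := hV₂.mem_iff.1 hy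
        exact hηN.map_mem (hbV x hx)
      have hβ : FMap F V₂ (fun x => ψ' (l x)) := hl.1.comp (sub_fmap c.hE.sub hψ') (fun x hx => hl.mem hx)
      have hβQ : ∀ y ∈ Q, ψ' (l y) = y := by
        intro y hy
        obtain ⟨x, hx, rfl⟩ := hψ.mem_iff.1 hy
        rw [l1 x (hV.le hx), hψ'e x hx]
      have hQN : ∀ m ∈ V₂, m ∈ Subgroup.normalizer (Q : Set Ω) := by
        intro y hy
        obtain ⟨x, hx, rfl⟩ := hV₂.mem_iff.1 hy
        exact (hηm _ (hbV x hx)).2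
      have hQTC : TC F T Q := hRTC.conj hT (sub_fiso c.hE.sub hψ).isConj
      have hβm : ∀ m ∈ V₂, m⁻¹ * ψ' (l m) ∈ Q := by
        intro m hm
        have hβT : ψ' (l m) ∈ T := hψ'.map_mem (hl.mem hm)
        refine hQTC.cent hT ⟨T.mul_mem (T.inv_mem (hV₂T hm)) hβT, ?_⟩
        refine mem_centralizer_iff'.2 fun y hy => ?_
        have hy' : m * y * m⁻¹ ∈ Q := (Subgroup.mem_normalizer_iff.1 (hQN m hm) y).1 hy
        have h5 : ψ' (l (m * y * m⁻¹)) = ψ' (l m) * ψ' (l y) * (ψ' (l m))⁻¹ := hβ.map_conj hm (hQV₂ hy)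
        rw [hβQ _ hy', hβQ _ hy] at h5
        calc m⁻¹ * ψ' (l m) * y * (m⁻¹ * ψ' (l m))⁻¹ = m⁻¹ * (ψ' (l m) * y * (ψ' (l m))⁻¹) * m := by group
          _ = y := by rw [← h5]; group
      have hβV : ∀ m ∈ V₂, ψ' (l m) ∈ V₂ := by
        intro m hm
        have := V₂.mul_mem hm (hQV₂ (hβm m hm))
        rwa [mul_inv_cancel_left] at this
      obtain ⟨j, hj⟩ := IsPGroup.iff_card.1 hTp
      have hit : ∀ m ∈ V₂, (fun x => ψ' (l x))^[p ^ j] m = m := by
        intro m hm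
        rw [iter_of_fix hβ hQV₂ hβQ hβm _ hm]
        have h6 : (m⁻¹ * ψ' (l m)) ^ p ^ j = 1 := by
          rw [← hj]
          exact congrArg Subtype.val (pow_card_eq_one' (G := T) (x := ⟨_, hQT (hβm m hm)⟩))
        rw [h6, mul_one]
      have hthβ : ThT χ E V₂ (fun x => ψ' (l x)) (1 * (1 * χ b)⁻¹) :=
        (hth.inv c hV₂ l1).comp c (fun x hx => hl.mem hx) (tht_of_sub hψ')
      have h7 := (hthβ.iter c hβV (p ^ j)).congr hit
      have hcardlt : Nat.card R < Nat.card V₂ := by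
        rw [← hV₂.card_eq]
        have hVf : Finite V := finite_of_le (hVT.trans hTS)
        exact FusionFrat.card_lt hV
      have hcardR : Nat.card R = Nat.card P := hR.card_eq.symm
      have h8 := ih V₂ (hQTC.mono hT hQV₂ hV₂T) (by omega) _ _ _ h7 (tht_of_sub (fmap_id E hV₂T))
      have h9 := eq_one_of_pow c.hΔ h8
      rw [one_mul, one_mul, inv_eq_one] at h9
      exact h9
    rw [hb, map_mul, map_inv, inv_mul_eq_one] at goal
    exact goal.symm

theorem ThT.uniq [Finite S] [Fact p.Prime] (c : Ctx E p χ) (hP : TC F T P) (h : ThT χ E P f d) (h' : ThT χ E P f d') : d = d' :=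
  ThT.unique c _ P hP le_rfl f d d' h h'

end

end Cfsg.Agent.Lib.H34PIndex
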