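import Mathlib
import Cfsg.Agent.Lib.H34PIndex

/-!
# Values of maps on centric subgroups (helper34)
-/

set_option autoImplicit false

universe u v

namespace Cfsg.Agent.Lib.H34PIndex

open Cfsg Cfsg.FusionSystem Cfsg.Agent.Lib.FusionBasic Cfsg.Agent.Lib.FusionSat Cfsg.Agent.Lib.FusionNormal
  Cfsg.Agent.Lib.FusionInvar Cfsg.Agent.Lib.FusionTools Cfsg.Agent.Lib.FusionPP Cfsg.Agent.Lib.FusionStrong
  Cfsg.Agent.Lib.FusionSys Cfsg.Agent.Lib.FusionFrat Cfsg.Agent.Lib.FusionSub Cfsg.Agent.Lib.FusionPrime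
  Cfsg.Agent.Lib.FusionTC Cfsg.Agent.Lib.FusionRes

section

variable {Ω : Type*} [Group Ω] {S T : Subgroup Ω} {F : FusionSystem S} {E : FusionSystem T} {P P' Q R M V X Y Z : Subgroup Ω}
  {a b f g h : Ω → Ω} {p : ℕ} {Δ : Type*} [Group Δ] {χ : ↥(F.autGroup T) →* Δ} {d d' : Δ}

/-- Values of maps with centric source: products of the values of restrictions of maps on subgroups `Q` with `Q ∩ T`
`T`-centric. -/
inductive RR (E : FusionSystem T) (χ : ↥(F.autGroup T) →* Δ) : Subgroup Ω → (Ω → Ω) → Δ → Prop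
  | base {P Q : Subgroup Ω} {f g : Ω → Ω} {d : Δ} : F.IsCentric P → P ≤ Q → FMap F Q f → TC F T (Q ⊓ T) →
      ThT χ E (Q ⊓ T) f d → (∀ x ∈ P, g x = f x) → RR E χ P g d
  | comp {P P' : Subgroup Ω} {f g h : Ω → Ω} {d d' : Δ} : RR E χ P f d → FIso F P P' f → RR E χ P' g d' →
      (∀ x ∈ P, h x = g (f x)) → RR E χ P h (d' * d)

theorem RR.centric (h : RR E χ P f d) : F.IsCentric P := by
  induction h with
  | base h1 => exact h1
  | comp _ _ _ _ ih => exact ih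

theorem RR.fmap (h : RR E χ P f d) : FMap F P f := by
  induction h with
  | base _ h2 h3 _ _ h4 => exact (h3.restrict h2).congr fun x hx => (h4 x hx).symm
  | comp _ h2 _ h4 _ ih2 => exact (h2.1.comp ih2 (fun x hx => h2.mem hx)).congr fun x hx => (h4 x hx).symm

theorem RR.congr (h : RR E χ P f d) (hfg : ∀ x ∈ P, f x = g x) : RR E χ P g d := by
  cases h with
  | base h1 h2 h3 h4 h5 h6 => exact .base h1 h2 h3 h4 h5 fun x hx => by rw [← hfg x hx, h6 x hx]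
  | comp h1 h2 h3 h4 => exact .comp h1 h2 h3 fun x hx => by rw [← hfg x hx, h4 x hx]

theorem RR.restrict (h : RR E χ Q f d) : ∀ P : Subgroup Ω, P ≤ Q → F.IsCentric P → RR E χ P f d := by
  induction h with
  | base h1 h2 h3 h4 h5 h6 =>
    intro P hP hc
    exact .base hc (hP.trans h2) h3 h4 h5 fun x hx => h6 x (hP hx)
  | @comp Q Q' f g h d d' _ h2 _ h4 ih1 ih2 =>
    intro P hP hc
    obtain ⟨P', hP'⟩ := (h2.1.restrict hP).exists_iso
    have hP'Q : P' ≤ Q' := by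
      intro y hy
      obtain ⟨x, hx, rfl⟩ := hP'.mem_iff.1 hy
      exact h2.mem (hP hx)
    exact .comp (ih1 P hP hc) hP' (ih2 P' hP'Q (isCentric_of_isConj hc hP'.isConj)) fun x hx => h4 x (hP hx)

theorem RR.comp' (h : RR E χ P f d) (hfQ : ∀ x ∈ P, f x ∈ Q) (h' : RR E χ Q g d') : RR E χ P (fun x => g (f x)) (d' * d) := by
  obtain ⟨P', hP'⟩ := h.fmap.exists_iso
  have hP'Q : P' ≤ Q := by
    intro y hy
    obtain ⟨x, hx, rfl⟩ := hP'.mem_iff.1 hy
    exact hfQ x hx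
  exact .comp h hP' (h'.restrict P' hP'Q (isCentric_of_isConj h.centric hP'.isConj)) fun _ _ => rfl

/-- the image of `Q ∩ T` -/
theorem fiso_inf (hT : F.StronglyClosed T) (hf : FIso F P Q f) : FIso F (P ⊓ T) (Q ⊓ T) f := by
  refine ⟨hf.1.restrict inf_le_left, fun y => ?_⟩
  constructor
  · rintro ⟨hyQ, hyT⟩
    obtain ⟨x, hx, rfl⟩ := hf.mem_iff.1 hyQ
    refine ⟨x, ⟨hx, ?_⟩, rfl⟩
    obtain ⟨k, hk, k1, -⟩ := hf.symm
    rw [← k1 x hx]
    exact StronglyClosed.map_mem F hT hk.1 hyQ hyT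
  · rintro ⟨x, ⟨hx, hxT⟩, rfl⟩
    exact ⟨hf.mem hx, StronglyClosed.map_mem F hT hf.1 hx hxT⟩

theorem RR.inv (c : Ctx E p χ) (h : RR E χ P f d) : ∀ (P' : Subgroup Ω) (g : Ω → Ω), FIso F P P' f → (∀ x ∈ P, g (f x) = x) →
    RR E χ P' g d⁻¹ := by
  have hT := c.hE.closed
  induction h with
  | @base P Q f g d h1 h2 h3 h4 h5 h6 =>
    intro P' k hk hkg
    obtain ⟨Q', hQ'⟩ := h3.exists_iso
    obtain ⟨l, hl, l1, l2⟩ := hQ'.symm
    have hi := fiso_inf hT hQ'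
    have hP'Q' : P' ≤ Q' := by
      intro y hy
      obtain ⟨x, hx, rfl⟩ := hk.mem_iff.1 hy
      rw [h6 x hx]
      exact hQ'.mem (h2 hx)
    refine .base (isCentric_of_isConj h1 hk.isConj) hP'Q' hl.1 (h4.conj hT hi.isConj) (h5.inv c hi fun x hx => l1 x hx.1) ?_
    intro y hy
    obtain ⟨x, hx, rfl⟩ := hk.mem_iff.1 hy
    rw [hkg x hx, h6 x hx, l1 x (h2 hx)]
  | @comp P P₁ f g h d d' h1 h2 h3 h4 ih1 ih2 =>
    intro P' k hk hkg
    obtain ⟨l, hl, l1, l2⟩ := h2.symm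
    have hg : FIso F P₁ P' g := by
      refine ⟨h3.fmap, fun y => ?_⟩
      rw [hk.mem_iff]
      constructor
      · rintro ⟨x, hx, rfl⟩
        exact ⟨f x, h2.mem hx, (h4 x hx).symm⟩
      · rintro ⟨z, hz, rfl⟩
        obtain ⟨x, hx, rfl⟩ := h2.mem_iff.1 hz
        exact ⟨x, hx, h4 x hx⟩
    obtain ⟨m, hm, m1, m2⟩ := hg.symm
    rw [mul_inv_rev]
    refine .comp (ih2 P' m hg m1) hm (ih1 P₁ l h2 l1) ?_
    intro y hy
    obtain ⟨x, hx, rfl⟩ := hk.mem_iff.1 hy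
    rw [hkg x hx, h4 x hx, m1 _ (h2.mem hx), l1 x hx]

/-- Consistency with the values on `T`. -/
theorem RR.tht (c : Ctx E p χ) (h : RR E χ P f d) : TC F T (P ⊓ T) → ThT χ E (P ⊓ T) f d := by
  have hT := c.hE.closed
  induction h with
  | base h1 h2 h3 h4 h5 h6 =>
    intro _
    exact (h5.restrict (inf_le_inf_right T h2)).congr fun x hx => (h6 x hx.1).symm
  | @comp P P' f g h d d' h1 h2 h3 h4 ih1 ih2 =>
    intro hTC
    have hi := fiso_inf hT h2
    exact ((ih1 hTC).comp c (fun x hx => hi.mem hx) (ih2 (hTC.conj hT hi.isConj))).congr fun x hx => (h4 x hx.1).symm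

variable [Finite S] [Fact p.Prime]

omit [Fact p.Prime] in
theorem tc_top (c : Ctx E p χ) : TC F T (S ⊓ T) := by
  have hTf : Finite T := finite_of_le c.hE.closed.1
  rw [inf_eq_right.2 c.hE.closed.1]
  exact TC.of_centric c.hE.closed c.hE (isCentric_top E)

omit [Fact p.Prime] in
theorem rr_aut (c : Ctx E p χ) (hP : F.IsCentric P) {β : MulAut S} (hβ : β ∈ F.autGroup S) {b : ↥(F.autGroup T)}
    (hb : ∀ t ∈ T, autFun (b : MulAut T) t = autFun β t) : RR E χ P (autFun β) (χ b) :=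
  .base hP hP.1 (fmap_of_autGroup le_rfl hβ) (tc_top c)
    (((tht_aut b).congr hb).restrict inf_le_right) (fun _ _ => rfl)

omit [Fact p.Prime] in
theorem rr_id (c : Ctx E p χ) (hP : F.IsCentric P) : RR E χ P (fun x => x) 1 :=
  .base hP hP.1 (fmap_id F le_rfl) (tc_top c) (tht_of_sub (fmap_id E inf_le_right)) (fun _ _ => rfl)

omit [Fact p.Prime] in
theorem RR.iter (c : Ctx E p χ) (h : RR E χ P f d) (hPP : ∀ x ∈ P, f x ∈ P) (n : ℕ) : RR E χ P (f^[n]) (d ^ n) := by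
  induction n with
  | zero =>
    rw [pow_zero]
    exact rr_id c h.centric
  | succ n ih =>
    have hit : ∀ x ∈ P, f^[n] x ∈ P := by
      intro x hx
      clear ih
      induction n with
      | zero => exact hx
      | succ n ih => rw [Function.iterate_succ_apply']; exact hPP _ ih
    rw [pow_succ']
    exact (ih.comp' hit h).congr fun x _ => by rw [Function.iterate_succ_apply']

theorem rr_conj (c : Ctx E p χ) (hP : F.IsCentric P) {s : Ω} (hs : s ∈ S) : RR E χ P (fun x => s * x * s⁻¹) 1 := by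
  have hT := c.hE.closed
  have hTS := hT.1
  have hn := normalizes_of_stronglyClosed hT hs
  have hTf : Finite T := finite_of_le hTS
  obtain ⟨α, hα, hαs⟩ := exists_aut_of_fmap (fmap_conj F hTS hs) (fun x hx => (Subgroup.mem_normalizer_iff.1 hn x).1 hx)
  have hpow : ∀ (n : ℕ) (x : T), (((α ^ n) x : T) : Ω) = s ^ n * x * (s ^ n)⁻¹ := by
    intro n
    induction n with
    | zero => intro x; simp
    | succ n ih =>
      intro x
      rw [pow_succ', MulAut.mul_apply, hαs, ih, pow_succ']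
      group
  obtain ⟨k, hk⟩ := IsPGroup.iff_card.1 c.hS
  have hs1 : s ^ p ^ k = 1 := by
    rw [← hk]
    exact congrArg Subtype.val (pow_card_eq_one' (G := S) (x := ⟨s, hs⟩))
  have hα1 : α ^ p ^ k = 1 := by
    apply MulEquiv.ext
    intro x
    apply Subtype.ext
    rw [hpow, hs1]
    show (1 : Ω) * x * 1⁻¹ = x
    group
  have hχ : χ ⟨α, hα⟩ = 1 := by
    apply eq_one_of_pow c.hΔ (k := k)
    rw [← map_pow]
    have : (⟨α, hα⟩ : ↥(F.autGroup T)) ^ p ^ k = 1 := Subtype.ext hα1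
    rw [this, map_one]
  refine .base hP hP.1 (fmap_conj F le_rfl hs) (tc_top c) ?_ (fun _ _ => rfl)
  have h1 := tht_aut (E := E) (χ := χ) ⟨α, hα⟩
  rw [hχ] at h1
  exact (h1.congr fun x hx => by
    show autFun α x = s * x * s⁻¹
    rw [autFun_of_mem _ hx]; exact hαs ⟨x, hx⟩).restrict inf_le_right

theorem exists_rr (c : Ctx E p χ) (hP : F.IsCentric P) (hf : FMap F P f) : ∃ d, RR E χ P f d := by
  have hT := c.hE.closed
  refine alperin_induction_cr c.hS c.hF (fun P f => F.IsCentric P → ∃ d, RR E χ P f d) ?_ ?_ ?_ ?_ ?_ P f hf hP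
  · intro P f g _ h hfg hc
    obtain ⟨d, hd⟩ := h hc
    exact ⟨d, hd.congr hfg⟩
  · intro P s _ hs hc
    exact ⟨1, rr_conj c hc hs⟩
  · intro P Q f g hf h1 hg h2 hfQ hc
    obtain ⟨d, hd⟩ := h1 hc
    obtain ⟨P', hP'⟩ := hf.exists_iso
    have hP'Q : P' ≤ Q := by
      intro y hy
      obtain ⟨x, hx, rfl⟩ := hP'.mem_iff.1 hy
      exact hfQ x hx
    obtain ⟨d', hd'⟩ := h2 (isCentric_mono (isCentric_of_isConj hc hP'.isConj) hP'Q hg.le)
    exact ⟨_, hd.comp' hfQ hd'⟩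
  · intro P Q f g hf h1 hg h2 h3 hc
    obtain ⟨d, hd⟩ := h1 (isCentric_of_isConj hc hg.isConj)
    exact ⟨_, hd.inv c Q g hf h2⟩
  · intro P a hPn hPc hPr ha _
    have hTC : TC F T (P ⊓ T) := ⟨inf_le_right, fun Q hQ => FusionSmall.centralizer_le_of_radical c.hS c.hF hT hPc hPr hQ⟩
    obtain ⟨d, hd⟩ := exists_tht c inf_le_right (ha.1.restrict (inf_le_left : P ⊓ T ≤ P))
    exact ⟨d, .base hPc le_rfl ha.1 hTC hd (fun _ _ => rfl)⟩

/-- uniqueness of values on large centric subgroups -/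
def UQ (E : FusionSystem T) (χ : ↥(F.autGroup T) →* Δ) (n : ℕ) : Prop :=
  ∀ (P : Subgroup Ω) (f : Ω → Ω) (d d' : Δ), n < Nat.card P → RR E χ P f d → RR E χ P f d' → d = d'

theorem agree (c : Ctx E p χ) {n : ℕ} (hU : UQ E χ n) (hQc : F.IsCentric Q) (hQV : Q ≤ V)
    (hn : ∀ v ∈ V, v ∈ Subgroup.normalizer (Q : Set Ω)) (hcard : n < Nat.card V) (h1 : RR E χ V f d) (h2 : RR E χ V g d')
    (hfg : ∀ x ∈ Q, f x = g x) : d = d' := by
  obtain ⟨V₁, hV₁⟩ := h1.fmap.exists_iso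
  obtain ⟨k, hk, k1, k2⟩ := hV₁.symm
  obtain ⟨Q₁, hQ₁⟩ := (h1.fmap.restrict hQV).exists_iso
  have hQ₁V : Q₁ ≤ V₁ := by
    intro y hy
    obtain ⟨x, hx, rfl⟩ := hQ₁.mem_iff.1 hy
    exact hV₁.mem (hQV hx)
  have hμ : FMap F V₁ (fun x => g (k x)) := hk.1.comp h2.fmap (fun x hx => hk.mem hx)
  obtain ⟨z, hz, -, hz2⟩ := FusionCentric.inner_of_trivial c.hS c.hF hQ₁V (by
    intro y hy
    obtain ⟨v, hv, rfl⟩ := hV₁.mem_iff.1 hy
    refine FusionQuot.mem_normalizer_of_forall hQ₁.le_right (hV₁.le_right (hV₁.mem hv)) ?_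
    intro w hw
    obtain ⟨x, hx, rfl⟩ := hQ₁.mem_iff.1 hw
    rw [← h1.fmap.map_conj hv (hQV hx)]
    exact hQ₁.mem ((Subgroup.mem_normalizer_iff.1 (hn v hv) x).1 hx)) (isCentric_of_isConj hQc hQ₁.isConj) hμ (by
    intro y hy
    obtain ⟨x, hx, rfl⟩ := hQ₁.mem_iff.1 hy
    show g (k (f x)) = f x
    rw [k1 x (hQV hx), hfg x hx])
  have h3 : RR E χ V₁ (fun x => g (k x)) (d' * d⁻¹) := (h1.inv c V₁ k hV₁ k1).comp' (fun x hx => hk.mem hx) h2
  have hV₁c : F.IsCentric V₁ := isCentric_of_isConj h1.centric hV₁.isConj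
  have h4 : RR E χ V₁ (fun x => g (k x)) 1 := (rr_conj c hV₁c (hQ₁.le_right hz)).congr fun y hy => (hz2 y hy).symm
  have h5 := hU V₁ _ _ _ (by rw [← hV₁.card_eq]; exact hcard) h3 h4
  rw [mul_inv_eq_one] at h5
  exact h5.symm

/-- data attached to a fully normalized non-radical centric subgroup -/
structure PD (E : FusionSystem T) (χ : ↥(F.autGroup T) →* Δ) (Ps M : Subgroup Ω) : Prop where
  fn : F.IsFullyNormalized Ps
  cen : F.IsCentric Ps
  lt : Ps < M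
  leN : M ≤ normalizerIn S Ps
  uq : UQ E χ (Nat.card Ps)
  ext : ∀ a, FIso F Ps Ps a → ∀ (V : Subgroup Ω) (a' : Ω → Ω), Ps ≤ V → V ≤ normalizerIn S Ps → FMap F V a' →
    (∀ x ∈ Ps, a' x = a x) → ∃ a'', FMap F (M ⊔ V) a'' ∧ ∀ x ∈ Ps, a'' x = a x
  inv : ∀ a a', FIso F Ps Ps a → FMap F M a' → (∀ x ∈ Ps, a' x = a x) → ∀ m ∈ M, a' m ∈ M

/-- the value of an automorphism of `Ps` -/
def Th (E : FusionSystem T) (χ : ↥(F.autGroup T) →* Δ) (Ps M : Subgroup Ω) (a : Ω → Ω) (d : Δ) : Prop :=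
  ∃ a', (∀ x ∈ Ps, a' x = a x) ∧ RR E χ M a' d

variable {Ps : Subgroup Ω}

theorem Th.congr (h : Th E χ Ps M f d) (hfg : ∀ x ∈ Ps, f x = g x) : Th E χ Ps M g d := by
  obtain ⟨a', h1, h2⟩ := h
  exact ⟨a', fun x hx => by rw [h1 x hx, hfg x hx], h2⟩

theorem PD.card (D : PD E χ Ps M) : Nat.card Ps < Nat.card M := by
  have hf : Finite M := finite_of_le (D.leN.trans (normalizerIn_le S Ps))
  exact FusionFrat.card_lt D.lt

theorem Th.unique (c : Ctx E p χ) (D : PD E χ Ps M) (h : Th E χ Ps M f d) (h' : Th E χ Ps M f d') : d = d' := by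
  obtain ⟨a', h1, h2⟩ := h
  obtain ⟨b', k1, k2⟩ := h'
  exact agree c D.uq D.cen D.lt.le (fun m hm => (D.leN hm).2) D.card h2 k2 fun x hx => by rw [h1 x hx, k1 x hx]

theorem Th.comp (D : PD E χ Ps M) (hf : FIso F Ps Ps f) (h : Th E χ Ps M f d) (h' : Th E χ Ps M g d') :
    Th E χ Ps M (fun x => g (f x)) (d' * d) := by
  obtain ⟨a', h1, h2⟩ := h
  obtain ⟨b', k1, k2⟩ := h'
  refine ⟨fun x => b' (a' x), fun x hx => ?_, h2.comp' (D.inv f a' hf h2.fmap h1) k2⟩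
  show b' (a' x) = g (f x)
  rw [h1 x hx, k1 _ (hf.mem hx)]

theorem th_of (c : Ctx E p χ) (D : PD E χ Ps M) (ha : FIso F Ps Ps a) (hPV : Ps < V) (hVN : V ≤ normalizerIn S Ps)
    (h : RR E χ V b d) (hab : ∀ x ∈ Ps, b x = a x) : Th E χ Ps M a d := by
  obtain ⟨a'', h1, h2⟩ := D.ext a ha V b hPV.le hVN h.fmap hab
  have hMVS : M ⊔ V ≤ S := h1.le
  obtain ⟨e, he⟩ := exists_rr c (isCentric_mono D.cen (D.lt.le.trans le_sup_left) hMVS) h1
  have hVf : Finite V := finite_of_le (le_sup_right.trans hMVS)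
  have hVc : F.IsCentric V := isCentric_mono D.cen hPV.le (le_sup_right.trans hMVS)
  have h3 := agree c D.uq D.cen hPV.le (fun v hv => (hVN hv).2) (FusionFrat.card_lt hPV) h (he.restrict V le_sup_right hVc)
    fun x hx => by rw [hab x hx, h2 x hx]
  rw [h3]
  exact ⟨a'', h2, he.restrict M le_sup_left (isCentric_mono D.cen D.lt.le (le_sup_left.trans hMVS))⟩

/-- the chain computation -/
theorem RR.chain (c : Ctx E p χ) (D : PD E χ Ps M) (hnTC : ¬ TC F T (Ps ⊓ T)) (h : RR E χ P f d) : ∀ (P'' : Subgroup Ω)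
    (η k η' : Ω → Ω) (e e' : Δ), FIso F P P'' f → FIso F P Ps η → RR E χ (normalizerIn S P) η e →
      (∀ x ∈ normalizerIn S P, η x ∈ normalizerIn S Ps) → FIso F Ps P k → (∀ x ∈ P, k (η x) = x) →
      FIso F P'' Ps η' → RR E χ (normalizerIn S P'') η' e' → (∀ x ∈ normalizerIn S P'', η' x ∈ normalizerIn S Ps) →
      Th E χ Ps M (fun x => η' (f (k x))) (e' * d * e⁻¹) := by
  have hT := c.hE.closed
  induction h with
  | @base P Q f g d h1 h2 h3 h4 h5 h6 =>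
    intro P'' η k η' e e' hg hη hηe hηN hk hkη hη' hη'e hη'N
    have hPS := h1.1
    have hPQ : P < Q := by
      refine lt_of_le_of_ne h2 fun hPQ => hnTC ?_
      rw [← hPQ] at h4
      exact h4.conj hT (fiso_inf hT hη).isConj
    have hV₀ := lt_normalizerIn c.hS h3.le hPQ
    set V₀ := normalizerIn Q P with hV₀def
    have hV₀N : V₀ ≤ normalizerIn S P := fun x hx => ⟨h3.le hx.1, hx.2⟩
    have hV₀c : F.IsCentric V₀ := isCentric_mono h1 hV₀.le (hV₀N.trans (normalizerIn_le S P))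
    obtain ⟨V, hV⟩ := (hηe.fmap.restrict hV₀N).exists_iso
    obtain ⟨k', hk', k'1, k'2⟩ := hV.symm
    have hVN : V ≤ normalizerIn S Ps := by
      intro y hy
      obtain ⟨x, hx, rfl⟩ := hV.mem_iff.1 hy
      exact hηN x (hV₀N hx)
    have hPsV : Ps < V := by
      refine lt_of_le_of_ne ?_ fun h => ?_
      · intro y hy
        obtain ⟨x, hx, rfl⟩ := hη.mem_iff.1 hy
        exact hV.mem (hV₀.le hx)
      · have hf : Finite V₀ := finite_of_le (hV₀N.trans (normalizerIn_le S P))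
        have h7 := FusionFrat.card_lt hV₀
        rw [hV.card_eq, ← h, hη.card_eq] at h7
        exact lt_irrefl _ h7
    have hfN : ∀ x ∈ V₀, f x ∈ normalizerIn S P'' := by
      intro x hx
      have hxQ : x ∈ Q := hx.1
      refine ⟨h3.map_mem hxQ, FusionQuot.mem_normalizer_of_forall hg.le_right (h3.map_mem hxQ) ?_⟩
      intro y hy
      obtain ⟨u, hu, rfl⟩ := hg.mem_iff.1 hy
      rw [h6 u hu, ← h3.map_conj hxQ (h2 hu), ← h6 _ ((Subgroup.mem_normalizer_iff.1 hx.2 u).1 hu)]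
      exact hg.mem ((Subgroup.mem_normalizer_iff.1 hx.2 u).1 hu)
    have r1 : RR E χ V k' e⁻¹ := (hηe.restrict V₀ hV₀N hV₀c).inv c V k' hV k'1
    have r2 : RR E χ V₀ f d := .base hV₀c (fun x hx => hx.1) h3 h4 h5 (fun _ _ => rfl)
    have r3 : RR E χ V (fun x => η' (f (k' x))) (e' * (d * e⁻¹)) :=
      (r1.comp' (fun x hx => hk'.mem hx) r2).comp' (fun x hx => hfN _ (hk'.mem hx)) hη'e
    rw [mul_assoc]
    refine th_of c D ?_ hPsV hVN r3 ?_
    · exact (hk.trans hg).trans hη'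
    · intro y hy
      obtain ⟨x, hx, rfl⟩ := hη.mem_iff.1 hy
      show η' (f (k' (η x))) = η' (g (k (η x)))
      rw [k'1 x (hV₀.le hx), hkη x hx, h6 x hx]
  | @comp P P₁ f g h d d' h1 h2 h3 h4 ih1 ih2 =>
    intro P'' η k η' e e' hh hη hηe hηN hk hkη hη' hη'e hη'N
    have hconj : F.IsConj P₁ Ps := isConj_trans (isConj_symm h2.isConj) hη.isConj
    obtain ⟨η₁, hη₁, hη₁N, hη₁m⟩ := exists_map_to_fullyNormalized c.hS c.hF D.fn hconj
    obtain ⟨k₁, hk₁, k₁1, k₁2⟩ := hη₁.symm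
    have hP₁c := h3.centric
    have hN₁c : F.IsCentric (normalizerIn S P₁) := isCentric_mono hP₁c (le_normalizerIn hP₁c.1) (normalizerIn_le S P₁)
    obtain ⟨e₁, he₁⟩ := exists_rr c hN₁c hη₁N
    have hgi : FIso F P₁ P'' g := by
      refine ⟨h3.fmap, fun y => ?_⟩
      rw [hh.mem_iff]
      constructor
      · rintro ⟨x, hx, rfl⟩
        exact ⟨f x, h2.mem hx, (h4 x hx).symm⟩
      · rintro ⟨z, hz, rfl⟩
        obtain ⟨x, hx, rfl⟩ := h2.mem_iff.1 hz
        exact ⟨x, hx, h4 x hx⟩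
    have t1 := ih1 P₁ η k η₁ e e₁ h2 hη hηe hηN hk hkη hη₁ he₁ hη₁m
    have t2 := ih2 P'' η₁ k₁ η' e₁ e' hgi hη₁ he₁ hη₁m hk₁ k₁1 hη' hη'e hη'N
    have t3 := (Th.comp D ((hk.trans h2).trans hη₁) t1 t2).congr (g := fun x => η' (h (k x))) (by
      intro y hy
      obtain ⟨x, hx, rfl⟩ := hη.mem_iff.1 hy
      show η' (g (k₁ (η₁ (f (k (η x)))))) = η' (h (k (η x)))
      rw [hkη x hx, k₁1 _ (h2.mem hx), h4 x hx])
    have e1 : e' * d' * e₁⁻¹ * (e₁ * d * e⁻¹) = e' * (d' * d) * e⁻¹ := by group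
    rwa [e1] at t3

end

end Cfsg.Agent.Lib.H34PIndex
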