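import Mathlib
import Cfsg.Agent.Lib.H34PIndex2
import Cfsg.Agent.Lib.H34Chain
import Cfsg.Agent.Lib.FusionStable
import Cfsg.Agent.Lib.FusionRad

/-!
# Uniqueness of the values and the subsystem (helper34)
-/

set_option autoImplicit false

universe u v

namespace Cfsg.Agent.Lib.H34PIndex

open Cfsg Cfsg.FusionSystem Cfsg.Agent.Lib.FusionBasic Cfsg.Agent.Lib.FusionSat Cfsg.Agent.Lib.FusionNormal
  Cfsg.Agent.Lib.FusionInvar Cfsg.Agent.Lib.FusionTools Cfsg.Agent.Lib.FusionPP Cfsg.Agent.Lib.FusionStrong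
  Cfsg.Agent.Lib.FusionSys Cfsg.Agent.Lib.FusionFrat Cfsg.Agent.Lib.FusionSub Cfsg.Agent.Lib.FusionPrime
  Cfsg.Agent.Lib.FusionTC Cfsg.Agent.Lib.FusionRes

section

variable {Ω : Type*} [Group Ω] {S T : Subgroup Ω} {F : FusionSystem S} {E : FusionSystem T}
  {P P' Ps Q R M V X Y Z : Subgroup Ω} {a b f g h : Ω → Ω} {p : ℕ} {Δ : Type*} [Group Δ] {χ : ↥(F.autGroup T) →* Δ}
  {d d' : Δ}

omit [Group Ω] [Group Δ] in
theorem opMap_conj {A : Type*} [Group A] {B : Subgroup A} : ∀ α ∈ B, ∀ κ ∈ (pCore p B).map B.subtype,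
    α * κ * α⁻¹ ∈ (pCore p B).map B.subtype := by
  rintro α hα κ hκ
  obtain ⟨K, h1, h2, h3, h4⟩ := FusionStable.mem_opMap_iff.1 hκ
  exact FusionStable.mem_opMap_iff.2 ⟨K, h1, h2, h3, h2 α hα κ h4⟩

variable [Finite S] [Fact p.Prime]

theorem exists_pd (c : Ctx E p χ) (hn : F.IsFullyNormalized Ps) (hc : F.IsCentric Ps) (hr : ¬ F.IsRadical p Ps)
    (hU : UQ E χ (Nat.card Ps)) : ∃ M, PD E χ Ps M := by
  have hPS := hc.1
  obtain ⟨K, hKdef⟩ : ∃ K, K = (pCore p (F.autGroup Ps)).map (F.autGroup Ps).subtype := ⟨_, rfl⟩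
  have hK : K ≤ F.autGroup Ps := by rw [hKdef]; exact Subgroup.map_subtype_le _
  have hKp : IsPGroup p K := by rw [hKdef]; exact (Cores.isPGroup_pCore p _).map _
  have hKn : ∀ α ∈ F.autGroup Ps, ∀ κ ∈ K, α * κ * α⁻¹ ∈ K := by
    rw [hKdef]
    exact opMap_conj
  have hKS : K ≤ autInducedBy S Ps := le_autInducedBy_of_normal (fullyAutomized_of_fullyNormalized c.hS c.hF hn) hK hKp hKn
  have hInn : Inn Ps ≤ K := by rw [hKdef]; exact inn_le_pCore c.hS hPS
  obtain ⟨κ, hκ, hκI⟩ : ∃ κ ∈ K, κ ∉ Inn Ps := by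
    rw [isRadical_iff c.hS hPS, ← hKdef] at hr
    by_contra hcon
    push Not at hcon
    exact hr hcon
  have hPM : Ps ≤ kNorm S Ps K := by
    intro x hx
    have hxn : x ∈ Subgroup.normalizer (Ps : Set Ω) := Subgroup.le_normalizer hx
    refine kNorm_of_conjAut (hPS hx) hxn (hInn ?_)
    exact FusionRad.mem_inn_iff.2 ⟨x, hx, fun y => conjAut_apply x hxn y⟩
  refine ⟨kNorm S Ps K, hn, hc, lt_of_le_of_ne hPM ?_, kNorm_le_normalizerIn S K, hU, ?_, ?_⟩
  · intro h
    obtain ⟨s, hs, h1⟩ := mem_autInducedBy_iff.1 (hKS hκ)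
    apply hκI
    have hsM : s ∈ kNorm S Ps K := ⟨hs, κ, hκ, fun x hx => by rw [autFun_of_mem κ hx, h1]⟩
    rw [← h] at hsM
    exact FusionRad.mem_inn_iff.2 ⟨s, hsM, h1⟩
  · intro a ha V a' hPV hVN ha' haa'
    have hsub : kNorm S Ps K ⊔ V ≤ actSub ha S := by
      refine sup_le ?_ ?_
      · intro m hm
        refine mem_actSub.2 ⟨(kNorm_le_normalizerIn S K hm).2, ?_⟩
        obtain ⟨-, α, hα, h1⟩ := hm
        obtain ⟨s, hs, h2⟩ := mem_autInducedBy_iff.1 (hKS (hKn _ ha.equiv_mem_autGroup α hα))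
        refine ⟨s, hs, fun x hx => ?_⟩
        have h3 := h2 ((ha.equiv : MulAut Ps) ⟨x, hx⟩)
        have h4 : ((ha.equiv : MulAut Ps) * α * (ha.equiv : MulAut Ps)⁻¹) ((ha.equiv : MulAut Ps) ⟨x, hx⟩) =
            (ha.equiv : MulAut Ps) (α ⟨x, hx⟩) := by
          rw [MulAut.mul_apply, MulAut.inv_apply_self, MulAut.mul_apply]
        rw [h4] at h3
        have h5 := h1 x hx
        rw [autFun_of_mem _ hx] at h5
        rw [← h5]
        exact h3
      · intro v hv
        refine mem_actSub.2 ⟨(hVN hv).2, a' v, ha'.map_mem hv, fun x hx => ?_⟩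
        have h1 : v * x * v⁻¹ ∈ Ps := (Subgroup.mem_normalizer_iff.1 (hVN hv).2 x).1 hx
        rw [← haa' _ h1, ← haa' x hx, ha'.map_conj hv (hPV hx)]
    obtain ⟨a'', h1, h2⟩ := (isReceptive_iff.1 (receptive_of_fullyNormalized c.hS c.hF hn)).2 Ps a ha (kNorm S Ps K ⊔ V)
      (hPM.trans le_sup_left) (sup_le ((kNorm_le_normalizerIn S K).trans (normalizerIn_le S Ps))
        (hVN.trans (normalizerIn_le S Ps))) (fun t ht => mem_actSub.1 (hsub ht))
    exact ⟨a'', h1, h2⟩
  · intro a a' ha ha' haa' m hm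
    refine kNorm_map hKn ha' hPM ?_ hm hm
    exact ha.congr fun x hx => (haa' x hx).symm

/-- **Uniqueness of the values on centric subgroups.** -/
theorem rr_unique_aux (c : Ctx E p χ) (n : ℕ) : ∀ (P : Subgroup Ω) (f : Ω → Ω) (d d' : Δ), Nat.card S - Nat.card P = n →
    RR E χ P f d → RR E χ P f d' → d = d' := by
  have hT := c.hE.closed
  induction n using Nat.strong_induction_on with
  | _ n ih =>
    intro P f d d' hn h h'
    have hPc := h.centric
    have hPS := hPc.1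
    have hU : UQ E χ (Nat.card P) := by
      intro P₁ f₁ e e' hlt h1 h2
      have h3 : Nat.card P₁ ≤ Nat.card S := Subgroup.card_le_of_le h1.centric.1
      exact ih (Nat.card S - Nat.card P₁) (by omega) P₁ f₁ e e' rfl h1 h2
    by_cases hTC : TC F T (P ⊓ T)
    · exact (h.tht c hTC).uniq c hTC (h'.tht c hTC)
    obtain ⟨Ps, η, hPs, hη, hηN, hηm⟩ := exists_fullyNormalized_map c.hS c.hF hPS
    obtain ⟨k, hk, k1, k2⟩ := hη.symm
    have hPsc : F.IsCentric Ps := isCentric_of_isConj hPc hη.isConj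
    have hnTC : ¬ TC F T (Ps ⊓ T) := fun h1 => hTC (h1.conj hT (fiso_inf hT hk).isConj)
    have hnr : ¬ F.IsRadical p Ps := fun hr => hnTC ⟨inf_le_right, fun Q hQ =>
      FusionSmall.centralizer_le_of_radical c.hS c.hF hT hPsc hr hQ⟩
    have hcard : Nat.card Ps = Nat.card P := hη.card_eq.symm
    obtain ⟨M, D⟩ := exists_pd c hPs hPsc hnr (by rw [hcard]; exact hU)
    have hNc : F.IsCentric (normalizerIn S P) := isCentric_mono hPc (le_normalizerIn hPS) (normalizerIn_le S P)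
    obtain ⟨e, he⟩ := exists_rr c hNc hηN
    obtain ⟨P'', hP''⟩ := h.fmap.exists_iso
    have hP''c : F.IsCentric P'' := isCentric_of_isConj hPc hP''.isConj
    obtain ⟨η', hη', hη'N, hη'm⟩ := exists_map_to_fullyNormalized c.hS c.hF hPs
      (isConj_trans (isConj_symm hP''.isConj) hη.isConj)
    have hN''c : F.IsCentric (normalizerIn S P'') := isCentric_mono hP''c (le_normalizerIn hP''c.1) (normalizerIn_le S P'')
    obtain ⟨e', he'⟩ := exists_rr c hN''c hη'N
    have t1 := h.chain c D hnTC P'' η k η' e e' hP'' hη he hηm hk k1 hη' he' hη'm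
    have t2 := h'.chain c D hnTC P'' η k η' e e' hP'' hη he hηm hk k1 hη' he' hη'm
    have t3 := t1.unique c D t2
    exact mul_left_cancel (mul_right_cancel t3)

theorem RR.uniq (c : Ctx E p χ) (h : RR E χ P f d) (h' : RR E χ P f d') : d = d' :=
  rr_unique_aux c _ P f d d' rfl h h'

theorem rr_gen0 (c : Ctx E p χ) (hf : FMap (gen0 F p) P f) (hP : F.IsCentric P) : RR E χ P f 1 := by
  refine genSys_induction a0_data (fun P f => F.IsCentric P → RR E χ P f 1) ?_ ?_ ?_ ?_ ?_ P f hf hP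
  · rintro P f ⟨-, α, hα, h⟩ hP
    let B : Subgroup (MulAut P) :=
      { carrier := {α | α ∈ F.autGroup P ∧ RR E χ P (autFun α) 1}
        one_mem' := ⟨Subgroup.one_mem _, (rr_id c hP).congr fun x hx => (autFun_one hx).symm⟩
        mul_mem' := by
          rintro α β ⟨h1, h2⟩ ⟨h3, h4⟩
          refine ⟨Subgroup.mul_mem _ h1 h3, ?_⟩
          have h5 := h4.comp' (fun x hx => autFun_mem β hx) h2
          rw [one_mul] at h5
          exact h5.congr fun x hx => (autFun_mul α β hx).symm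
        inv_mem' := by
          rintro α ⟨h1, h2⟩
          refine ⟨Subgroup.inv_mem _ h1, ?_⟩
          have h5 := h2.inv c P (autFun α⁻¹) ((fiso_autFun_iff hP.1).2 h1) (fun x hx => autFun_inv_apply α hx)
          rwa [inv_one] at h5 }
    have h1 : OP F p P ≤ B := by
      rw [op_le_iff]
      rintro β hβ ⟨k, hk⟩
      refine ⟨hβ, ?_⟩
      have hβi := (fiso_autFun_iff hP.1).2 hβ
      obtain ⟨e, he⟩ := exists_rr c hP hβi.1
      have h2 := he.iter c (fun x hx => hβi.mem hx) (p ^ k)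
      have h3 : RR E χ P ((autFun β)^[p ^ k]) 1 := (rr_id c hP).congr fun x hx => by
        rw [← autFun_pow_apply β (p ^ k) hx, ← hk, pow_orderOf_eq_one, autFun_one hx]
      have h4 := eq_one_of_pow c.hΔ (h2.uniq c h3)
      rwa [h4] at he
    exact (h1 hα).2.congr fun x hx => (h x hx).symm
  · intro P s hP hs hPc
    exact rr_conj c hPc hs
  · intro P Q f g hf ih1 hg ih2 hfQ hPc
    obtain ⟨R, hR⟩ := hf.exists_iso
    have hRQ : R ≤ Q := fun y hy => by
      obtain ⟨x, hx, rfl⟩ := hR.mem_iff.1 hy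
      exact hfQ x hx
    have hRc : F.IsCentric R := isCentric_of_isConj hPc (sub_fiso gen0_sub hR).isConj
    have hQc : F.IsCentric Q := isCentric_mono hRc hRQ hg.le
    have h1 := (ih1 hPc).comp' hfQ (ih2 hQc)
    rwa [one_mul] at h1
  · intro P Q f g hf ih hg hgf hfg hQc
    have hfi := sub_fiso gen0_sub hf
    have hPc : F.IsCentric P := isCentric_of_isConj hQc (isConj_symm hfi.isConj)
    have h1 := (ih hPc).inv c Q g hfi hgf
    rwa [inv_one] at h1
  · intro P f g hf ih hfg hPc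
    exact (ih hPc).congr hfg

end

end Cfsg.Agent.Lib.H34PIndex
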