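import Mathlib
import Cfsg.Agent.Lib.FusionRes

/-!
# The subsystem of index prime to `p` attached to a group `W` with `W0 ≤ W ≤ Aut_F(S)` (helper34)
-/

set_option autoImplicit false

universe u v

namespace Cfsg.Agent.Lib.H34PIndex4

open Cfsg Cfsg.FusionSystem Cfsg.Agent.Lib.FusionBasic Cfsg.Agent.Lib.FusionSat Cfsg.Agent.Lib.FusionNormal
  Cfsg.Agent.Lib.FusionInvar Cfsg.Agent.Lib.FusionTools Cfsg.Agent.Lib.FusionPP Cfsg.Agent.Lib.FusionStrong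
  Cfsg.Agent.Lib.FusionSys Cfsg.Agent.Lib.FusionFrat Cfsg.Agent.Lib.FusionSub Cfsg.Agent.Lib.FusionPrime
  Cfsg.Agent.Lib.FusionTC Cfsg.Agent.Lib.FusionRes

section

variable {Ω : Type*} [Group Ω] {S : Subgroup Ω} {F : FusionSystem S} {P Q R : Subgroup Ω}
  {a b f g : Ω → Ω} {p : ℕ} {W : Subgroup (MulAut S)}

/-- the maps `a ∘ f₀` with `a` in `W` and `f₀` in `gen0` -/
def WMap (F : FusionSystem S) (p : ℕ) (W : Subgroup (MulAut S)) (P : Subgroup Ω) (f : Ω → Ω) : Prop :=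
  ∃ α ∈ W, ∃ f₀ : Ω → Ω, FMap (gen0 F p) P f₀ ∧ ∀ x ∈ P, f x = autFun α (f₀ x)

theorem wMap_comp (hW : W ≤ F.autGroup S) (h : WMap F p W P f) (hfQ : ∀ x ∈ P, f x ∈ Q) (hQS : Q ≤ S) (h' : WMap F p W Q g) :
    WMap F p W P (fun x => g (f x)) := by
  obtain ⟨α, hα, f₀, h2, h3⟩ := h
  obtain ⟨β, hβ, g₀, k2, k3⟩ := h'
  have hα' := (fiso_autFun_iff (F := F) le_rfl).2 (Subgroup.inv_mem _ (hW hα))
  obtain ⟨Q', hQ'⟩ := (hα'.1.restrict hQS).exists_iso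
  obtain ⟨g₁, hg₁, h6⟩ := gen0_conjInv Q Q' _ g₀ hα' k2 (fun y => hQ'.2 y)
  have h7 : ∀ x ∈ P, f₀ x = autFun α⁻¹ (f x) := fun x hx => by
    rw [h3 x hx, autFun_inv_apply _ (h2.map_mem hx)]
  refine ⟨β * α, Subgroup.mul_mem _ hβ hα, fun x => g₁ (f₀ x), h2.comp hg₁ fun x hx => ?_, fun x hx => ?_⟩
  · exact (hQ'.2 _).2 ⟨f x, hfQ x hx, (h7 x hx).symm⟩
  · show g (f x) = autFun (β * α) (g₁ (f₀ x))
    rw [h7 x hx, h6 _ (hfQ x hx), autFun_mul _ _ (autFun_mem _ (k2.map_mem (hfQ x hx))),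
      autFun_apply_inv _ (k2.map_mem (hfQ x hx)), k3 _ (hfQ x hx)]

theorem wMap_inv (hW : W ≤ F.autGroup S) (hf : FIso F P Q f) (hfg : ∀ x ∈ P, g (f x) = x) (h : WMap F p W P f) :
    WMap F p W Q g := by
  obtain ⟨α, hα, f₀, h2, h3⟩ := h
  have h1 := (fiso_autFun_iff (F := F) le_rfl).2 (hW hα)
  obtain ⟨R, hR⟩ := h2.exists_iso
  obtain ⟨k, hk, k1, k2⟩ := hR.symm
  have hRQ : ∀ y, y ∈ Q ↔ ∃ x ∈ R, autFun α x = y := by
    intro y
    rw [hf.mem_iff]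
    constructor
    · rintro ⟨x, hx, rfl⟩
      exact ⟨f₀ x, hR.mem hx, (h3 x hx).symm⟩
    · rintro ⟨z, hz, rfl⟩
      obtain ⟨x, hx, rfl⟩ := hR.mem_iff.1 hz
      exact ⟨x, hx, h3 x hx⟩
  obtain ⟨l, hl, h6⟩ := gen0_conjInv R Q _ k h1 hk.1 hRQ
  refine ⟨α⁻¹, Subgroup.inv_mem _ hα, l, hl, fun y hy => ?_⟩
  obtain ⟨x, hx, rfl⟩ := hf.mem_iff.1 hy
  rw [hfg x hx, h3 x hx, h6 _ (hR.mem hx), k1 x hx, autFun_inv_apply _ (h2.le hx)]

theorem wMap_conj {s : Ω} (hP : P ≤ S) (hs : s ∈ S) : WMap F p W P (fun x => s * x * s⁻¹) :=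
  ⟨1, Subgroup.one_mem _, _, fmap_conj _ hP hs,
    fun _ hx => (autFun_one (S.mul_mem (S.mul_mem hs (hP hx)) (S.inv_mem hs))).symm⟩

theorem wMap_congr (h : WMap F p W P f) (hfg : ∀ x ∈ P, f x = g x) : WMap F p W P g := by
  obtain ⟨α, hα, f₀, h2, h3⟩ := h
  exact ⟨α, hα, f₀, h2, fun x hx => by rw [← hfg x hx, h3 x hx]⟩

/-- The subsystem attached to `W`. -/
noncomputable def wsys (F : FusionSystem S) (p : ℕ) (W : Subgroup (MulAut S)) (hW : W ≤ F.autGroup S) : FusionSystem S :=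
  sysOf F S le_rfl (WMap F p W)
    (fun _ _ _ _ h1 h2 => wMap_congr h1 h2)
    (fun _ _ hP hs => wMap_conj hP hs)
    (fun _ _ _ _ _ hQ _ h1 _ h2 hfQ => wMap_comp hW h1 hfQ hQ h2)
    (fun _ _ _ _ _ _ hf h1 _ h2 _ => wMap_inv hW hf h2 h1)

theorem wMap_fmap (hW : W ≤ F.autGroup S) (h : WMap F p W P f) : FMap F P f := by
  obtain ⟨α, hα, f₀, h2, h3⟩ := h
  have h1 := (fiso_autFun_iff (F := F) le_rfl).2 (hW hα)
  exact ((sub_fmap gen0_sub h2).comp h1.1 (fun x hx => h2.map_mem hx)).congr fun x hx => (h3 x hx).symm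

variable (hW : W ≤ F.autGroup S)

theorem fmap_wsys : FMap (wsys F p W hW) P f ↔ WMap F p W P f := by
  unfold wsys
  rw [fmap_sysOf]
  exact ⟨fun h => h.2.2.2, fun h => ⟨wMap_fmap hW h, (wMap_fmap hW h).le, fun x hx => (wMap_fmap hW h).map_mem hx, h⟩⟩

theorem wsys_sub : (wsys F p W hW).IsSubsystemOf F :=
  isSubsystemOf_iff.2 fun _ _ h => wMap_fmap hW ((fmap_wsys hW).1 h)

theorem gen0_sub_wsys (h : FMap (gen0 F p) P f) : FMap (wsys F p W hW) P f :=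
  (fmap_wsys hW).2 ⟨1, Subgroup.one_mem _, f, h, fun x hx => (autFun_one (h.map_mem hx)).symm⟩

theorem w_wsys {β : MulAut S} (h : β ∈ W) : FMap (wsys F p W hW) S (autFun β) :=
  (fmap_wsys hW).2 ⟨β, h, fun x => x, fmap_id _ le_rfl, fun _ _ => rfl⟩

theorem op_wsys (hP : F.IsCentric P) : OP F p P ≤ (wsys F p W hW).autGroup P := by
  intro α hα
  exact (FMap_autFun_iff hP.1).1 (gen0_sub_wsys hW (gen0_base hP hα))

include hW in
/-- on centric subgroups the `Aut_F(S)`-component is well defined modulo `W` -/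
theorem mem_w_of_agree (hW0 : W0 F p ≤ W) {α β : MulAut S} (hα : α ∈ W) (hβ : β ∈ F.autGroup S) (hP : F.IsCentric P)
    {f₀ g₀ : Ω → Ω} (hf : FMap (gen0 F p) P f₀) (hg : FMap (gen0 F p) P g₀)
    (h : ∀ x ∈ P, autFun α (f₀ x) = autFun β (g₀ x)) : β ∈ W := by
  obtain ⟨R, hR⟩ := hg.exists_iso
  obtain ⟨k, hk, k1, k2⟩ := hR.symm
  have hRc : F.IsCentric R := isCentric_of_isConj hP (sub_fiso gen0_sub hR).isConj
  have h1 : α⁻¹ * β ∈ W0 F p := by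
    refine mem_w0 (P := R) (Subgroup.mul_mem _ (Subgroup.inv_mem _ (hW hα)) hβ) hRc ?_
    refine (hk.1.comp hf (fun x hx => hk.mem hx)).congr fun y hy => ?_
    obtain ⟨x, hx, rfl⟩ := hR.mem_iff.1 hy
    show f₀ (k (g₀ x)) = autFun (α⁻¹ * β) (g₀ x)
    rw [k1 x hx, autFun_mul _ _ (hg.map_mem hx), ← h x hx, autFun_inv_apply _ (hf.map_mem hx)]
  have h2 := Subgroup.mul_mem _ hα (hW0 h1)
  rwa [mul_inv_cancel_left] at h2

theorem wsys_saturated [Finite S] [Fact p.Prime] (hW0 : W0 F p ≤ W) (hS : IsPGroup p S) (hF : F.IsSaturated p) :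
    (wsys F p W hW).IsSaturated p := by
  have hop : ∀ P : Subgroup Ω, F.IsCentric P → OP F p P ≤ (wsys F p W hW).autGroup P := fun P hP => op_wsys hW hP
  refine Cfsg.Agent.Lib.FusionCriterion3.saturated_of_criterion hS (wsys F p W hW) {P | F.IsCentric P} ?_ ?_ ?_ ?_
  · intro P hP Q hQ
    exact isCentric_of_isConj hP (sub_isConj (wsys_sub hW) hQ)
  · intro P hP
    have hPc : F.IsCentric P := hP
    obtain ⟨Q', n, hQ', hn, -, -⟩ := exists_fullyNormalized_map hS hF hPc.1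
    obtain ⟨a, ψ, ha, hψ, h3⟩ := gen0_frat hS hF P n hn.1
    obtain ⟨Q, hQ⟩ := hψ.exists_iso
    have hQQ' : FIso F Q Q' a := by
      refine ⟨ha.1.restrict hQ.le_right, fun y => ?_⟩
      rw [hn.mem_iff]
      constructor
      · rintro ⟨x, hx, rfl⟩
        exact ⟨ψ x, hQ.mem hx, (h3 x hx).symm⟩
      · rintro ⟨z, hz, rfl⟩
        obtain ⟨x, hx, rfl⟩ := hQ.mem_iff.1 hz
        exact ⟨x, hx, h3 x hx⟩
    have hQn : F.IsFullyNormalized Q := fullyNormalized_of_aut ha hQQ' hQ'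
    have hQc : F.IsCentric Q := isCentric_of_isConj hPc (sub_fiso gen0_sub hQ).isConj
    have hQS := hQc.1
    refine ⟨Q, isConj_iff_fiso.2 ⟨ψ, gen0_sub_wsys hW hQ.1, hQ.2⟩, ?_, ?_⟩
    · have h1 := fullyAutomized_of_fullyNormalized hS hF hQn
      rw [isFullyAutomized_iff hS] at h1 ⊢
      refine ⟨hQS, fun h => h1.2 (h.trans ?_)⟩
      have h2 : autInducedBy S Q ≤ (wsys F p W hW).autGroup Q := (autInducedBy_le_op hS hQS).trans (op_wsys hW hQc)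
      exact ⟨_, (Subgroup.relIndex_mul_relIndex _ _ _ h2 (sub_autGroup (wsys_sub hW) hQS)).symm⟩
    · rw [isReceptive_iff]
      refine ⟨hQS, fun R f hf V hRV hVS hV => ?_⟩
      have hf' := sub_fiso (wsys_sub hW) hf
      obtain ⟨g, hg, hgf⟩ := (isReceptive_iff.1 (receptive_of_fullyNormalized hS hF hQn)).2 R f hf' V hRV hVS hV
      refine ⟨g, ?_, hgf⟩
      obtain ⟨b, g₀, hb, hg₀, h4⟩ := gen0_frat hS hF V g hg
      obtain ⟨β, hβ, h5⟩ := frat_iff_aut hb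
      obtain ⟨α, hα, f₀, hf₀, h6⟩ := (fmap_wsys hW).1 hf.1
      have hRc : F.IsCentric R := isCentric_of_isConj hQc (isConj_symm hf'.isConj)
      have hβW : β ∈ W := by
        refine mem_w_of_agree hW hW0 hα hβ hRc hf₀ (hg₀.restrict hRV) fun x hx => ?_
        rw [← h6 x hx, ← h5 _ (hg₀.map_mem (hRV hx)), ← h4 x (hRV hx), hgf x hx]
      exact (fmap_wsys hW).2 ⟨β, hβW, g₀, hg₀, fun x hx => by rw [h4 x hx, h5 _ (hg₀.map_mem hx)]⟩
  · intro D hD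
    have hD' : ∀ P f, F.IsCentric P → FMap (wsys F p W hW) P f → FMap D P f := fun P f hP hf =>
      hom_subset_iff_fmap.1 (hD P hP) f hf
    rw [le_iff_fmap]
    intro P f hf
    obtain ⟨α, hα, f₀, h2, h3⟩ := (fmap_wsys hW).1 hf
    have h4 : FMap D P f₀ := gen0_le (fun Q hQ β hβ =>
      (FMap_autFun_iff hQ.1).1 (hD' Q _ hQ (gen0_sub_wsys hW (gen0_base hQ hβ)))) h2
    have h5 : FMap D S (autFun α) := hD' S _ (isCentric_top F) (w_wsys hW hα)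
    exact (h4.comp h5 (fun x hx => h4.map_mem hx)).congr fun x hx => (h3 x hx).symm
  · intro P hP hP'
    exact absurd (centric_of_centric hS hF hop hP) hP'

theorem wsys_primeIndex [Finite S] [Fact p.Prime] (hS : IsPGroup p S) (hF : F.IsSaturated p) :
    (wsys F p W hW).HasPrimeToPIndexIn F p :=
  ⟨wsys_sub hW, fun _ hP => op_le_autGroup hS hF (fun _ hQ => op_wsys hW hQ) hP⟩

theorem autGroup_wsys [Finite S] (hW0 : W0 F p ≤ W) : (wsys F p W hW).autGroup S = W := by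
  ext β
  constructor
  · intro hβ
    have h1 : FMap (wsys F p W hW) S (autFun β) := (FMap_autFun_iff le_rfl).2 hβ
    obtain ⟨α, hα, f₀, h2, h3⟩ := (fmap_wsys hW).1 h1
    have hβF : β ∈ F.autGroup S := (FMap_autFun_iff le_rfl).1 (sub_fmap (wsys_sub hW) h1)
    refine mem_w_of_agree hW hW0 hα hβF (isCentric_top F) h2 (fmap_id (gen0 F p) le_rfl) fun x hx => ?_
    rw [← h3 x hx]
  · intro hβ
    exact (FMap_autFun_iff le_rfl).1 (w_wsys hW hβ)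

theorem wsys_conjInv (hn : ∀ α ∈ F.autGroup S, ∀ β ∈ W, α * β * α⁻¹ ∈ W) : ConjInv F (wsys F p W hW) := by
  intro P Q a f ha hf hQ
  obtain ⟨α, hα, f₀, h2, h3⟩ := (fmap_wsys hW).1 hf
  obtain ⟨g₀, hg₀, h4⟩ := gen0_conjInv P Q a f₀ ha h2 hQ
  let A : MulAut S := ha.equiv
  have hA : ∀ x ∈ S, autFun A x = a x := fun x hx => by rw [autFun_of_mem _ hx]; rfl
  refine ⟨fun x => autFun (A * α * A⁻¹) (g₀ x), (fmap_wsys hW).2 ⟨_, hn _ ha.equiv_mem_autGroup _ hα, g₀, hg₀,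
    fun _ _ => rfl⟩, fun x hx => ?_⟩
  have hf₀ := h2.map_mem hx
  show autFun (A * α * A⁻¹) (g₀ (a x)) = a (f x)
  rw [h4 x hx, h3 x hx, ← hA _ hf₀, autFun_mul _ _ (autFun_mem _ hf₀), autFun_inv_apply _ hf₀, autFun_mul _ _ hf₀,
    hA _ (autFun_mem _ hf₀)]

theorem wsys_inv [Finite S] [Fact p.Prime] (hS : IsPGroup p S) (hF : F.IsSaturated p)
    (hn : ∀ α ∈ F.autGroup S, ∀ β ∈ W, α * β * α⁻¹ ∈ W) : Inv (wsys F p W hW) F where
  sub := wsys_sub hW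
  closed := stronglyClosed_top F
  conj := fun h1 h2 h3 => wsys_conjInv hW hn _ _ _ _ h1 h2 h3
  frattini := by
    intro P f hPT hf
    obtain ⟨b, f₀, hb, hf₀, h2⟩ := gen0_frat hS hF P f hf
    exact ⟨b, f₀, hb, gen0_sub_wsys hW hf₀, h2⟩

theorem wsys_ext [Finite S] : Ext (wsys F p W hW) F := by
  refine ext_of_lam (stronglyClosed_top F) (wsys_sub hW) fun a ha => ?_
  have ha' := sub_fiso (wsys_sub hW) ha
  have hle : centralizerIn S S ≤ S := centralizerIn_le S S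
  refine ⟨a, ha'.1.restrict (sup_le le_rfl hle), fun _ _ => rfl, fun c hc => ?_⟩
  exact S.mul_mem (S.inv_mem (hle hc)) (ha'.mem (hle hc))

theorem wsys_isNormalIn [Finite S] [Fact p.Prime] (hW0 : W0 F p ≤ W) (hS : IsPGroup p S) (hF : F.IsSaturated p)
    (hn : ∀ α ∈ F.autGroup S, ∀ β ∈ W, α * β * α⁻¹ ∈ W) : (wsys F p W hW).IsNormalIn F p :=
  isNormalIn_iff.2 ⟨wsys_saturated hW hW0 hS hF, hF, wsys_inv hW hS hF hn, wsys_ext hW⟩

end

end Cfsg.Agent.Lib.H34PIndex4
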