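import Mathlib
import Cfsg.Agent.Lib.H34PIndex3
import Cfsg.Agent.Lib.H34PIndex4

/-!
# The subsystem attached to a character of `Aut_F(T)` trivial on `Aut_E(T)` (helper34)
-/

set_option autoImplicit false

universe u v

namespace Cfsg.Agent.Lib.H34PIndex

open Cfsg Cfsg.FusionSystem Cfsg.Agent.Lib.FusionBasic Cfsg.Agent.Lib.FusionSat Cfsg.Agent.Lib.FusionNormal
  Cfsg.Agent.Lib.FusionInvar Cfsg.Agent.Lib.FusionTools Cfsg.Agent.Lib.FusionPP Cfsg.Agent.Lib.FusionStrong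
  Cfsg.Agent.Lib.FusionSys Cfsg.Agent.Lib.FusionFrat Cfsg.Agent.Lib.FusionSub Cfsg.Agent.Lib.FusionPrime
  Cfsg.Agent.Lib.FusionTC Cfsg.Agent.Lib.FusionRes Cfsg.Agent.Lib.H34PIndex4

section

variable {Ω : Type*} [Group Ω] {S T : Subgroup Ω} {F : FusionSystem S} {E : FusionSystem T}
  {P P' Ps Q R M V X Y Z : Subgroup Ω} {a b f g h : Ω → Ω} {p : ℕ} {Δ : Type*} [Group Δ] {χ : ↥(F.autGroup T) →* Δ}
  {d d' : Δ}

/-- the automorphisms of `S` with restriction to `T` in the kernel of `χ` -/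
def WK (hTS : T ≤ S) (χ : ↥(F.autGroup T) →* Δ) : Subgroup (MulAut S) where
  carrier := {β | β ∈ F.autGroup S ∧ ∃ b : ↥(F.autGroup T), χ b = 1 ∧ ∀ t ∈ T, autFun (b : MulAut T) t = autFun β t}
  one_mem' := ⟨Subgroup.one_mem _, 1, map_one χ, fun t ht => by
    rw [autFun_one (hTS ht)]; exact autFun_one ht⟩
  mul_mem' := by
    rintro α β ⟨h1, a, h2, h3⟩ ⟨k1, b, k2, k3⟩
    refine ⟨Subgroup.mul_mem _ h1 k1, a * b, by rw [map_mul, h2, k2, one_mul], fun t ht => ?_⟩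
    show autFun ((a : MulAut T) * (b : MulAut T)) t = _
    rw [autFun_mul _ _ ht, autFun_mul _ _ (hTS ht), h3 _ (autFun_mem _ ht), k3 t ht]
  inv_mem' := by
    rintro α ⟨h1, a, h2, h3⟩
    refine ⟨Subgroup.inv_mem _ h1, a⁻¹, by rw [map_inv, h2, inv_one], fun t ht => ?_⟩
    show autFun ((a : MulAut T)⁻¹) t = _
    have h4 : autFun ((a : MulAut T)⁻¹) t ∈ T := autFun_mem _ ht
    have h5 := h3 _ h4
    rw [autFun_apply_inv _ ht] at h5
    conv_rhs => rw [h5]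
    rw [autFun_inv_apply _ (hTS h4)]

theorem wk_le {hTS : T ≤ S} : WK hTS χ ≤ F.autGroup S := fun _ h => h.1

theorem exists_res_aut [Finite S] (hT : F.StronglyClosed T) {β : MulAut S} (hβ : β ∈ F.autGroup S) :
    ∃ b : ↥(F.autGroup T), ∀ t ∈ T, autFun (b : MulAut T) t = autFun β t := by
  have hβi := (fiso_autFun_iff le_rfl).2 hβ
  have hi : FIso F T T (autFun β) := fiso_restrict hβi.1 hT.1 fun x hx => StronglyClosed.map_mem F hT hβi.1 (hT.1 hx) hx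
  refine ⟨⟨hi.equiv, hi.equiv_mem_autGroup⟩, fun t ht => ?_⟩
  show autFun (hi.equiv : MulAut T) t = _
  rw [autFun_of_mem _ ht]
  rfl

theorem wk_normal [Finite S] (hT : F.StronglyClosed T) {α β : MulAut S} (hα : α ∈ F.autGroup S) (hβ : β ∈ WK hT.1 χ) :
    α * β * α⁻¹ ∈ WK hT.1 χ := by
  obtain ⟨h1, b, h2, h3⟩ := hβ
  obtain ⟨a, ha⟩ := exists_res_aut hT hα
  obtain ⟨a', ha'⟩ := exists_res_aut hT (Subgroup.inv_mem _ hα)
  have haa : a' = a⁻¹ := by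
    apply Subtype.ext
    rw [Subgroup.coe_inv, eq_inv_iff_mul_eq_one]
    apply eq_one_of_autFun
    intro x hx
    rw [autFun_mul _ _ hx, ha _ hx, ha' _ (by rw [← ha _ hx]; exact autFun_mem _ hx), autFun_inv_apply _ (hT.1 hx)]
  refine ⟨Subgroup.mul_mem _ (Subgroup.mul_mem _ hα h1) (Subgroup.inv_mem _ hα), a * b * a', ?_, fun t ht => ?_⟩
  · rw [haa, map_mul, map_mul, h2, mul_one, map_inv, mul_inv_cancel]
  · show autFun ((a : MulAut T) * (b : MulAut T) * (a' : MulAut T)) t = _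
    have h4 : autFun (a' : MulAut T) t ∈ T := autFun_mem _ ht
    have h5 : autFun (b : MulAut T) (autFun (a' : MulAut T) t) ∈ T := autFun_mem _ h4
    rw [autFun_mul _ _ ht, autFun_mul _ _ h4, autFun_mul _ _ (hT.1 ht), autFun_mul _ _ (autFun_mem _ (hT.1 ht)),
      ha _ h5, h3 _ h4, ha' _ ht]

variable [Finite S] [Fact p.Prime]

theorem w0_le_wk (c : Ctx E p χ) : W0 F p ≤ WK c.hE.closed.1 χ := by
  have hT := c.hE.closed
  rw [W0, Subgroup.closure_le]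
  rintro β ⟨hβ, P, hP, h1⟩
  obtain ⟨b, hb⟩ := exists_res_aut hT hβ
  exact ⟨hβ, b, (rr_aut c hP hβ hb).uniq c (rr_gen0 c h1 hP), hb⟩

theorem mem_of_rr (c : Ctx E p χ) (h : RR E χ P f 1) : FMap (wsys F p (WK c.hE.closed.1 χ) wk_le) P f := by
  have hT := c.hE.closed
  obtain ⟨b, g₀, hb, hg₀, h4⟩ := gen0_frat c.hS c.hF P f h.fmap
  obtain ⟨β, hβ, h5⟩ := frat_iff_aut hb
  obtain ⟨b', hb'⟩ := exists_res_aut hT hβ
  obtain ⟨R, hR⟩ := hg₀.exists_iso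
  have hRc : F.IsCentric R := isCentric_of_isConj h.centric (sub_fiso gen0_sub hR).isConj
  have h6 := (rr_gen0 c hg₀ h.centric).comp' (fun x hx => hR.mem hx) (rr_aut c hRc hβ hb')
  have h7 := (h6.congr (g := f) (fun x hx => by
    show autFun β (g₀ x) = f x
    rw [← h5 _ (hg₀.map_mem hx), h4 x hx])).uniq c h
  rw [mul_one] at h7
  exact (fmap_wsys wk_le).2 ⟨β, ⟨hβ, b', h7, hb'⟩, g₀, hg₀, fun x hx => by rw [h4 x hx, h5 _ (hg₀.map_mem hx)]⟩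

theorem aut_mem (c : Ctx E p χ) (hQ : TC F T Q) (ha : FIso E Q Q a) : FMap (wsys F p (WK c.hE.closed.1 χ) wk_le) Q a := by
  have hT := c.hE.closed
  have hTS := hT.1
  have hQS : Q ≤ S := hQ.1.trans hTS
  obtain ⟨Q', n, hQ', hn, -, -⟩ := exists_fullyNormalized_map c.hS c.hF hQS
  obtain ⟨b, ψ, hb, hψ, h3⟩ := gen0_frat c.hS c.hF Q n hn.1
  obtain ⟨Q₂, hQ₂⟩ := hψ.exists_iso
  have hQQ' : FIso F Q₂ Q' b := by
    refine ⟨hb.1.restrict hQ₂.le_right, fun y => ?_⟩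
    rw [hn.mem_iff]
    constructor
    · rintro ⟨x, hx, rfl⟩
      exact ⟨ψ x, hQ₂.mem hx, (h3 x hx).symm⟩
    · rintro ⟨z, hz, rfl⟩
      obtain ⟨x, hx, rfl⟩ := hQ₂.mem_iff.1 hz
      exact ⟨x, hx, h3 x hx⟩
  have hQ₂n : F.IsFullyNormalized Q₂ := fullyNormalized_of_aut hb hQQ' hQ'
  have hψF : FIso F Q Q₂ ψ := sub_fiso gen0_sub hQ₂
  obtain ⟨k, hk, k1, k2⟩ := hQ₂.symm
  have hf₁ : FMap E Q₂ (fun y => ψ (a (k y))) := (Inv.strong c.hE).transport hQ.1 hψF k1 ha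
  have hQ₂TC : TC F T Q₂ := hQ.conj hT hψF.isConj
  have hf₁i : FIso F Q₂ Q₂ (fun y => ψ (a (k y))) := by
    refine (sub_fmap c.hE.sub hf₁).fiso_of_card (hQ₂TC.1.trans hTS) (fun x hx => ?_) le_rfl
    exact hQ₂.mem (ha.mem (hk.mem hx))
  obtain ⟨f₂, hf₂, h5, h6⟩ := exists_extension_centralizer (receptive_of_fullyNormalized c.hS c.hF hQ₂n) hf₁i
  have hUc : F.IsCentric (Q₂ ⊔ centralizerIn S Q₂) :=
    H34Chain.isCentric_sup (fullyCentralized_of_fullyNormalized c.hS c.hF hQ₂n)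
  have hUTC : TC F T ((Q₂ ⊔ centralizerIn S Q₂) ⊓ T) :=
    hQ₂TC.mono hT (le_inf le_sup_left hQ₂TC.1) inf_le_right
  obtain ⟨d, hd⟩ := exists_tht c (inf_le_right : (Q₂ ⊔ centralizerIn S Q₂) ⊓ T ≤ T) (hf₂.restrict inf_le_left)
  have hd1 : d = 1 := (hd.restrict (le_inf le_sup_left hQ₂TC.1)).uniq c hQ₂TC
    ((tht_of_sub hf₁).congr fun x hx => (h5 x hx).symm)
  rw [hd1] at hd
  have hm := mem_of_rr c (.base hUc le_rfl hf₂ hUTC hd (fun _ _ => rfl))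
  have hm₁ : FMap (wsys F p (WK hTS χ) wk_le) Q₂ (fun y => ψ (a (k y))) := (hm.restrict le_sup_left).congr h5
  have h7 := ((gen0_sub_wsys wk_le hQ₂.1).comp hm₁ (fun x hx => hQ₂.mem hx)).comp (gen0_sub_wsys wk_le hk.1)
    (fun x hx => hf₁i.mem (hQ₂.mem hx))
  refine h7.congr fun x hx => ?_
  show k (ψ (a (k (ψ x)))) = a x
  rw [k1 x hx, k1 _ (ha.mem hx)]

theorem sub_wsys (c : Ctx E p χ) : E.IsSubsystemOf (wsys F p (WK c.hE.closed.1 χ) wk_le) := by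
  have hT := c.hE.closed
  have hTf : Finite T := finite_of_le hT.1
  rw [isSubsystemOf_iff]
  refine alperin_induction_cr (isPGroup_of_le c.hS hT.1) c.hEs
    (fun P f => FMap (wsys F p (WK c.hE.closed.1 χ) wk_le) P f) ?_ ?_ ?_ ?_ ?_
  · intro P f g _ h1 h2
    exact h1.congr h2
  · intro P s hP hs
    exact fmap_conj _ (hP.trans hT.1) (hT.1 hs)
  · intro P Q f g _ h1 _ h2 h3
    exact h1.comp h2 h3
  · intro P Q f g hf h1 hg h2 h3
    have h4 : FIso (wsys F p (WK c.hE.closed.1 χ) wk_le) P Q f := ⟨h1, hf.2⟩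
    obtain ⟨k, hk, k1, k2⟩ := h4.symm
    refine hk.1.congr fun y hy => ?_
    have h5 : f (k y) = f (g y) := by rw [k2 y hy, h3 y hy]
    exact h1.inj (hk.mem hy) (hg.mem hy) h5
  · intro P a _ hc _ ha
    exact aut_mem c ((centric_iff_tc c.hE).1 hc) ha

theorem exists_not_mem (c : Ctx E p χ) (hχ : ∃ a, χ a ≠ 1) : ∃ β ∈ F.autGroup S, β ∉ WK c.hE.closed.1 χ := by
  have hT := c.hE.closed
  obtain ⟨a, ha⟩ := hχ
  have hai := (fiso_autFun_iff hT.1).2 a.2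
  have hTn := fullyNormalized_of_stronglyClosed hT
  obtain ⟨N, hN⟩ : ∃ N, N = χ.ker.map (F.autGroup T).subtype := ⟨_, rfl⟩
  have hmem : ∀ {α : MulAut T}, α ∈ N ↔ ∃ h : α ∈ F.autGroup T, χ ⟨α, h⟩ = 1 := by
    intro α
    rw [hN, Subgroup.mem_map]
    constructor
    · rintro ⟨x, hx, rfl⟩
      exact ⟨x.2, hx⟩
    · rintro ⟨h1, h2⟩
      exact ⟨⟨α, h1⟩, h2, rfl⟩
  obtain ⟨g, α, hα, hg, hgT, h1⟩ := exists_frattini_ext (M := S) c.hS (fullyAutomized_of_fullyNormalized c.hS c.hF hTn)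
    (receptive_of_fullyNormalized c.hS c.hF hTn) N (fun α hα => (hmem.1 hα).1) (by
      intro α hα n hn
      obtain ⟨h2, h3⟩ := hmem.1 hn
      refine hmem.2 ⟨Subgroup.mul_mem _ (Subgroup.mul_mem _ hα h2) (Subgroup.inv_mem _ hα), ?_⟩
      have h4 : (⟨α * n * α⁻¹, Subgroup.mul_mem _ (Subgroup.mul_mem _ hα h2) (Subgroup.inv_mem _ hα)⟩ : ↥(F.autGroup T)) =
        ⟨α, hα⟩ * ⟨n, h2⟩ * ⟨α, hα⟩⁻¹ := rfl
      rw [h4, map_mul, map_mul, h3, mul_one, map_inv, mul_inv_cancel]) hT.1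
    (fun s hs => ⟨hs, normalizes_of_stronglyClosed hT hs⟩) (by
      intro α hα
      have h2 : α ∈ F.autGroup T := autInducedBy_le_autGroup hT.1 le_rfl hα
      refine hmem.2 ⟨h2, ?_⟩
      obtain ⟨k, hk⟩ := IsPGroup.iff_orderOf.1 (isPGroup_autInducedBy (P := T) c.hS le_rfl) ⟨α, hα⟩
      rw [Subgroup.orderOf_mk] at hk
      apply eq_one_of_pow c.hΔ (k := k)
      rw [← map_pow, ← hk]
      have h3 : (⟨α, h2⟩ : ↥(F.autGroup T)) ^ orderOf α = 1 := Subtype.ext (pow_orderOf_eq_one α)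
      rw [h3, map_one]) hai
  obtain ⟨β, hβ, h2⟩ := exists_aut_of_fmap hg (fun x hx => hg.map_mem hx)
  refine ⟨β, hβ, ?_⟩
  rintro ⟨-, b, hb, h3⟩
  obtain ⟨h4, h5⟩ := hmem.1 hα
  apply ha
  have h6 : a = b * ⟨α, h4⟩ := by
    apply Subtype.ext
    show (a : MulAut T) = (b : MulAut T) * α
    apply MulEquiv.ext
    intro x
    apply Subtype.ext
    have hαx : autFun α (x : Ω) ∈ T := autFun_mem _ x.2
    rw [← autFun_coe, ← autFun_coe, autFun_mul _ _ x.2, h3 _ hαx, h1 x x.2, autFun_of_mem β (hT.1 hαx), h2]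
  rw [h6, map_mul, hb, h5, mul_one]

end

end Cfsg.Agent.Lib.H34PIndex
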