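import Mathlib
import Cfsg.Agent.Lib.H34Limit2
import Cfsg.Agent.Lib.H34PIndex5
import Cfsg.Agent.S5198
import Cfsg.Prelude.Def_Local

/-!
# Reduction to normal subsystems: the chain of subsystems (helper34)
-/

set_option autoImplicit false

universe u v

namespace Cfsg.Agent.Lib.H34Solv

open Cfsg Cfsg.FusionSystem Cfsg.Agent.Lib.FusionBasic Cfsg.Agent.Lib.FusionSat Cfsg.Agent.Lib.FusionNormal
  Cfsg.Agent.Lib.FusionInvar Cfsg.Agent.Lib.FusionTools Cfsg.Agent.Lib.FusionPP Cfsg.Agent.Lib.FusionStrong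
  Cfsg.Agent.Lib.FusionSys Cfsg.Agent.Lib.FusionFrat Cfsg.Agent.Lib.FusionSub Cfsg.Agent.Lib.FusionPrime
  Cfsg.Agent.Lib.FusionTC Cfsg.Agent.Lib.FusionRes Cfsg.Agent.Lib.FusionPIdx Cfsg.Agent.Lib.FusionPPower
  Cfsg.Agent.Lib.H34Limit Cfsg.Agent.Lib.H34PIndex Cfsg.Agent.Lib.H34PIndex4 Cfsg.Agent.S5198

section

variable {Ω : Type*} [Group Ω] {S S' T U : Subgroup Ω} {F : FusionSystem S} {F' : FusionSystem S'} {E : FusionSystem T}
  {P Q R : Subgroup Ω} {a b f g : Ω → Ω} {p : ℕ} {N N' : Subgroup (MulAut T)}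

/-- the state of the descent -/
structure St (F : FusionSystem S) (E : FusionSystem T) (p : ℕ) (N : Subgroup (MulAut T)) (F' : FusionSystem S') : Prop where
  sat : F'.IsSaturated p
  inv : Inv F' F
  sub : E.IsSubsystemOf F'
  cen : centralizerIn S T ≤ S'
  aut : F'.autGroup T ≤ N
  lim : ∀ {U V : Subgroup Ω} {Finf : FusionSystem U} {L : FusionSystem V}, Finf.IsResidualLimitOf F p →
    L.IsResidualLimitOf F' p → Same Finf L

theorem inv_mid [Finite S] [Fact p.Prime] (hS : IsPGroup p S) (hE : Inv E F) (h : Inv F' F) (hF' : F'.IsSaturated p)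
    (hEF : E.IsSubsystemOf F') : Inv E F' := by
  have hS'f : Finite S' := finite_of_le h.le
  refine StrongInv.inv (isPGroup_of_le hS h.le) hF' ?_ hEF ?_
  · refine (stronglyClosed_iff F').2 ⟨sub_le hEF, fun P f hP hf x hx => ?_⟩
    exact StronglyClosed.map_mem F hE.closed (sub_fmap h.sub hf) hx (hP hx)
  · intro P Q R f g hPQ hQT hf hfQ hg hR
    exact Inv.strong hE P Q R f g hPQ hQT hf hfQ (sub_fmap h.sub hg) hR

/-- `wsys F' p W` is invariant in `F` when `F'` is and `W` is normalized by `Aut_F(S')`. -/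
theorem wsys_inv' [Finite S] [Fact p.Prime] (hS : IsPGroup p S) (h : Inv F' F) (hF' : F'.IsSaturated p)
    {W : Subgroup (MulAut S')} (hW : W ≤ F'.autGroup S') (hn : ∀ α ∈ F.autGroup S', ∀ β ∈ W, α * β * α⁻¹ ∈ W) :
    Inv (wsys F' p W hW) F where
  sub := sub_trans (wsys_sub hW) h.sub
  closed := h.closed
  conj := by
    intro P Q a f ha hf hQ
    obtain ⟨α, hα, f₀, h2, h3⟩ := (fmap_wsys hW).1 hf
    obtain ⟨g₀, hg₀, h4⟩ := gen0_conjInv' h P Q a f₀ ha h2 hQ
    let A : MulAut S' := ha.equiv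
    have hA : ∀ x ∈ S', autFun A x = a x := fun x hx => by rw [autFun_of_mem _ hx]; rfl
    refine ⟨fun x => autFun (A * α * A⁻¹) (g₀ x), (fmap_wsys hW).2 ⟨_, hn _ ha.equiv_mem_autGroup _ hα, g₀, hg₀,
      fun _ _ => rfl⟩, fun x hx => ?_⟩
    have hf₀ := h2.map_mem hx
    show autFun (A * α * A⁻¹) (g₀ (a x)) = a (f x)
    rw [h4 x hx, h3 x hx, ← hA _ hf₀, autFun_mul _ _ (autFun_mem _ hf₀), autFun_inv_apply _ hf₀, autFun_mul _ _ hf₀,
      hA _ (autFun_mem _ hf₀)]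
  frattini := by
    intro P f hPT hf
    have hS'f : Finite S' := finite_of_le h.le
    obtain ⟨a, f₁, ha, hf₁, h1⟩ := h.frattini hPT hf
    obtain ⟨b, f₀, hb, hf₀, h2⟩ := gen0_frat (isPGroup_of_le hS h.le) hF' P f₁ hf₁
    exact ⟨fun x => a (b x), f₀, (sub_fiso h.sub hb).trans ha, gen0_sub_wsys hW hf₀, fun x hx => by rw [h1 x hx, h2 x hx]⟩

theorem relIndex_dvd {G : Type*} [Group G] {A N N' : Subgroup G} (hAN : A ≤ N) (hn : ∀ x ∈ N, ∀ y ∈ N', x * y * x⁻¹ ∈ N') :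
    N'.relIndex A ∣ N'.relIndex N := by
  have h1 : (N'.subgroupOf N).Normal := ⟨fun y hy x => hn x x.2 y hy⟩
  have h2 := Subgroup.relIndex_dvd_index_of_normal (N'.subgroupOf N) (A.subgroupOf N)
  rwa [Subgroup.relIndex_subgroupOf hAN] at h2

/-- the values of elements of `Aut_{F_W}(T)` are trivial -/
theorem aut_wsys_le [Finite S] [Fact p.Prime] {Δ : Type*} [Group Δ] {χ : ↥(F.autGroup T) →* Δ} (c : Ctx E p χ)
    {α : MulAut T} (hα : α ∈ (wsys F p (WK c.hE.closed.1 χ) wk_le).autGroup T) :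
    ∃ h : α ∈ F.autGroup T, χ ⟨α, h⟩ = 1 := by
  have hT := c.hE.closed
  have hTS := hT.1
  have hW0 := w0_le_wk c
  have hsat := wsys_saturated wk_le hW0 c.hS c.hF
  have hαF : α ∈ F.autGroup T := sub_autGroup (wsys_sub wk_le) hTS hα
  refine ⟨hαF, ?_⟩
  obtain ⟨F₀, hF₀⟩ : ∃ F₀, F₀ = wsys F p (WK c.hE.closed.1 χ) wk_le := ⟨_, rfl⟩
  have hsub : F₀.IsSubsystemOf F := hF₀ ▸ wsys_sub wk_le
  have hT₀ : F₀.StronglyClosed T := (stronglyClosed_iff F₀).2 ⟨hTS, fun P f hP hf x hx =>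
    StronglyClosed.map_mem F hT (sub_fmap hsub hf) hx (hP hx)⟩
  have hαi : FIso F₀ T T (autFun α) := (fiso_autFun_iff hTS).2 (by rw [hF₀]; exact hα)
  obtain ⟨β, hβ, h1, -⟩ := exists_extension_centralizer (receptive_of_fullyNormalized c.hS (hF₀ ▸ hsat)
    (fullyNormalized_of_stronglyClosed hT₀)) hαi
  have hUc : F.IsCentric (T ⊔ centralizerIn S T) :=
    H34Chain.isCentric_sup (fullyCentralized_of_fullyNormalized c.hS c.hF (fullyNormalized_of_stronglyClosed hT))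
  rw [hF₀] at hβ
  obtain ⟨w, ⟨hw, b, hb, hbw⟩, g₀, hg₀, h2⟩ := (fmap_wsys wk_le).1 hβ
  obtain ⟨R, hR⟩ := hg₀.exists_iso
  have hRc : F.IsCentric R := isCentric_of_isConj hUc (sub_fiso gen0_sub hR).isConj
  have h3 := (rr_gen0 c hg₀ hUc).comp' (fun x hx => hR.mem hx) (rr_aut c hRc hw hbw)
  rw [hb, mul_one] at h3
  have h4 : RR E χ (T ⊔ centralizerIn S T) β 1 := h3.congr fun x hx => (h2 x hx).symm
  have hinf : (T ⊔ centralizerIn S T) ⊓ T = T := inf_eq_right.2 le_sup_left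
  have hTC : TC F T T := by
    have := tc_top c
    rwa [inf_eq_right.2 hTS] at this
  have h5 := h4.tht c (by rw [hinf]; exact hTC)
  rw [hinf] at h5
  have h6 : ThT χ E T (autFun α) 1 := h5.congr h1
  exact (tht_aut ⟨α, hαF⟩).uniq c hTC h6

theorem step_pprime [Finite S] [Fact p.Prime] (hS : IsPGroup p S) (hEs : E.IsSaturated p)
    (hE : Inv E F) (hN' : E.autGroup T ≤ N') (hNn : ∀ α ∈ F.autGroup T, ∀ β ∈ N', α * β * α⁻¹ ∈ N')
    (hN : N ≤ F.autGroup T) (hrel : (N'.relIndex N).Coprime p) (h : St F E p N F') :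
    ∃ F'' : FusionSystem S', St F E p N' F'' := by
  have hS'S := h.inv.le
  have hTS' : T ≤ S' := sub_le h.sub
  have hS'f : Finite S' := finite_of_le hS'S
  have hS' := isPGroup_of_le hS hS'S
  have hAF : F'.autGroup T ≤ F.autGroup T := h.aut.trans hN
  have hnorm : (N'.subgroupOf (F'.autGroup T)).Normal := ⟨fun y hy x => hNn _ (hAF x.2) y hy⟩
  let χ : ↥(F'.autGroup T) →* ↥(F'.autGroup T) ⧸ (N'.subgroupOf (F'.autGroup T)) := QuotientGroup.mk' _
  have hχ : ∀ α : ↥(F'.autGroup T), χ α = 1 ↔ (α : MulAut T) ∈ N' := by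
    intro α
    show (QuotientGroup.mk' _ α) = 1 ↔ _
    rw [QuotientGroup.mk'_apply, QuotientGroup.eq_one_iff, Subgroup.mem_subgroupOf]
  have hcop : (Nat.card (↥(F'.autGroup T) ⧸ (N'.subgroupOf (F'.autGroup T)))).Coprime p := by
    have h1 : N'.relIndex (F'.autGroup T) ∣ N'.relIndex N := relIndex_dvd h.aut fun x hx y hy => hNn x (hN hx) y hy
    exact hrel.coprime_dvd_left h1
  have c : Ctx E p χ := ⟨hS', h.sat, hEs, inv_mid hS hE h.inv h.sat h.sub, hcop, fun α hα => (hχ α).2 (hN' hα)⟩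
  have hTc := c.hE.closed
  have hW0 := w0_le_wk c
  refine ⟨wsys F' p (WK hTc.1 χ) wk_le, wsys_saturated wk_le hW0 hS' h.sat, ?_, sub_wsys c, h.cen, ?_, ?_⟩
  · refine wsys_inv' hS h.inv h.sat wk_le ?_
    rintro α hα β ⟨h1, b, hb, h2⟩
    have h3 : α * β * α⁻¹ ∈ F'.autGroup S' := (Inv.strong h.inv).autGroup_normal hS'S le_rfl α hα β h1
    refine ⟨h3, ?_⟩
    have hαi := (fiso_autFun_iff hS'S).2 hα
    have haT : FIso F T T (autFun α) := fiso_restrict (hαi.1.restrict hTS') le_rfl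
      fun x hx => StronglyClosed.map_mem F hE.closed hαi.1 (hTS' hx) hx
    obtain ⟨b', hb'⟩ := exists_res_aut hTc h3
    refine ⟨b', ?_, hb'⟩
    rw [hχ]
    have h4 := hNn haT.equiv haT.equiv_mem_autGroup (b : MulAut T) ((hχ b).1 hb)
    have h5 : (b' : MulAut T) = (haT.equiv : MulAut T) * (b : MulAut T) * (haT.equiv : MulAut T)⁻¹ := by
      rw [eq_mul_inv_iff_mul_eq]
      apply MulEquiv.ext
      intro x
      apply Subtype.ext
      rw [← autFun_coe, ← autFun_coe]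
      have hax : autFun (haT.equiv : MulAut T) x = autFun α x := by
        rw [autFun_of_mem _ x.2]; rfl
      have hbx : autFun (b : MulAut T) x ∈ T := autFun_mem _ x.2
      have hax' : ∀ y ∈ T, autFun (haT.equiv : MulAut T) y = autFun α y := fun y hy => by
        rw [autFun_of_mem _ hy]; rfl
      rw [autFun_mul _ _ x.2, autFun_mul _ _ x.2, hax, hax' _ hbx, hb' _ (haT.mem x.2), h2 x x.2,
        autFun_mul _ _ (autFun_mem _ (hTS' x.2)), autFun_inv_apply _ (hTS' x.2), autFun_mul _ _ (hTS' x.2)]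
    rw [h5]
    exact h4
  · intro α hα
    obtain ⟨h1, h2⟩ := aut_wsys_le c hα
    exact (hχ _).1 h2
  · intro U V Finf L hFinf hL
    obtain ⟨X, Xinf, hX⟩ := exists_limit _ _ hS' F' h.sat rfl rfl
    exact (h.lim hFinf hX).trans (limit_primeIndex hS' h.sat (wsys_saturated wk_le hW0 hS' h.sat)
      (wsys_primeIndex wk_le hS' h.sat) hX hL)

theorem step_ppower [Finite S] [Fact p.Prime] (hS : IsPGroup p S) (hEs : E.IsSaturated p)
    (hE : Inv E F) (hN' : E.autGroup T ≤ N') (hNn : ∀ α ∈ F.autGroup T, ∀ β ∈ N', α * β * α⁻¹ ∈ N')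
    (hN : N ≤ F.autGroup T) {m : ℕ} (hrel : N'.relIndex N = p ^ m) (h : St F E p N F') :
    ∃ (S'' : Subgroup Ω) (F'' : FusionSystem S''), St F E p N' F'' := by
  have hS'S := h.inv.le
  have hTS' : T ≤ S' := sub_le h.sub
  have hS'f : Finite S' := finite_of_le hS'S
  have hTf : Finite T := finite_of_le hE.le
  have hS' := isPGroup_of_le hS hS'S
  have hTp := isPGroup_of_le hS hE.le
  have hAF : F'.autGroup T ≤ F.autGroup T := h.aut.trans hN
  have hTF' := (inv_mid hS hE h.inv h.sat h.sub).closed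
  have hT := hE.closed
  have hnorm : (N'.subgroupOf (F'.autGroup T)).Normal := ⟨fun y hy x => hNn _ (hAF x.2) y hy⟩
  -- `p'`-elements lie in `N'`
  have hpp : ∀ α ∈ F'.autGroup T, (orderOf α).Coprime p → α ∈ N' := by
    intro α hα ho
    have h1 : N'.relIndex (F'.autGroup T) ∣ N'.relIndex N := relIndex_dvd h.aut fun x hx y hy => hNn x (hN hx) y hy
    rw [hrel] at h1
    obtain ⟨k, -, hk⟩ := (Nat.dvd_prime_pow Fact.out).1 h1
    have h2 : (⟨α, hα⟩ : ↥(F'.autGroup T)) ^ p ^ k ∈ N'.subgroupOf (F'.autGroup T) := by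
      rw [← QuotientGroup.eq_one_iff, QuotientGroup.mk_pow, ← hk]
      exact pow_card_eq_one'
    have h3 : α ^ p ^ k ∈ N' := h2
    have h4 : (orderOf α).Coprime (p ^ k) := Nat.Coprime.pow_right k ho
    obtain ⟨j, hj⟩ := exists_pow_eq_self_of_coprime h4.symm
    rw [← hj]
    exact N'.pow_mem h3 j
  have hInn : Inn T ≤ N' := (inn_le_autGroup le_rfl).trans hN'
  -- the subgroup
  obtain ⟨S'', hS''⟩ : ∃ S'', S'' = actIn S' T N' := ⟨_, rfl⟩
  have hmem : ∀ {x : Ω}, x ∈ S'' ↔ x ∈ S' ∧ ∃ α ∈ N', ∀ t : T, ((α t : T) : Ω) = x * (t : Ω) * x⁻¹ := by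
    intro x; rw [hS'']; exact mem_actIn
  have hS''S' : S'' ≤ S' := fun x hx => (hmem.1 hx).1
  have hhyp : F'.hyperfocalSubgroup p ≤ S'' := by
    intro x hx
    refine hmem.2 ⟨hyperfocal_le hx, ?_⟩
    obtain ⟨α, hα, h1⟩ := Cfsg.Agent.S5198.result p hS' F' h.sat T hTF' x hx
    refine ⟨α, ?_, h1⟩
    refine (sup_le ?_ hInn : _ ≤ N') hα
    rw [Subgroup.map_le_iff_le_comap]
    unfold pResidual
    rw [Subgroup.closure_le]
    intro β hβ
    refine hpp β β.2 ?_
    rw [Subgroup.orderOf_coe]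
    exact hβ
  -- conjugation by maps of `F` defined on `T`
  have hconj : ∀ {a : Ω → Ω} {x : Ω}, FMap F S' a → (∀ y ∈ S', a y ∈ S') → x ∈ S'' → a x ∈ S'' := by
    intro a x ha haS hx
    obtain ⟨hxS', α, hα, h1⟩ := hmem.1 hx
    have haT : FIso F T T a := fiso_restrict (ha.restrict hTS') le_rfl
      fun y hy => StronglyClosed.map_mem F hT ha (hTS' hy) hy
    refine hmem.2 ⟨haS x hxS', _, hNn haT.equiv haT.equiv_mem_autGroup α hα, fun t => ?_⟩
    obtain ⟨y, rfl⟩ := haT.equiv.surjective t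
    have h2 : ((haT.equiv : MulAut T) * α * (haT.equiv : MulAut T)⁻¹) ((haT.equiv : MulAut T) y) =
      (haT.equiv : MulAut T) (α y) := by
      rw [MulAut.mul_apply, MulAut.inv_apply_self, MulAut.mul_apply]
    refine (congrArg Subtype.val h2).trans ?_
    show a (α y : T) = a x * a y * (a x)⁻¹
    rw [h1, ha.map_conj hxS' (hTS' y.2)]
  have hnormal : (S''.subgroupOf S').Normal := by
    refine ⟨fun x hx s => ?_⟩
    exact hconj (a := fun y => (s : Ω) * y * (s : Ω)⁻¹) (x := (x : Ω)) (fmap_conj F hS'S (hS'S s.2))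
      (fun y hy => S'.mul_mem (S'.mul_mem s.2 hy) (S'.inv_mem s.2)) hx
  have hcl' := stronglyClosed_of_hyp_le hS' h.sat hS''S' hnormal hhyp
  have hcl : F.StronglyClosed S'' := by
    refine (stronglyClosed_iff F).2 ⟨hS''S'.trans hS'S, fun P φ hP hφ x hx => ?_⟩
    obtain ⟨b, f₀, hb, hf₀, h1⟩ := h.inv.frattini (hP.trans hS''S') hφ
    rw [h1 x hx]
    exact hconj hb.1 (fun y hy => hb.mem hy) (StronglyClosed.map_mem F' hcl' hf₀ hx (hP hx))
  obtain ⟨F'', hF''s, hF''i⟩ := exists_index (Nat.card S') hS' F' h.sat hS''S' hhyp rfl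
  have hTS'' : T ≤ S'' := by
    intro t ht
    refine hmem.2 ⟨hTS' ht, conjAut T t (Subgroup.le_normalizer ht), hInn ?_, fun y => conjAut_apply t _ y⟩
    rw [inn_eq_autInducedBy]
    exact conjAut_mem_autInducedBy _ ht
  have hS''f : Finite S'' := finite_of_le hS''S'
  have hS''p := isPGroup_of_le hS' hS''S'
  have hinv'' : Inv F'' F := inv_index hS h.inv h.sat hF''s hF''i hcl
  have hsub'' : E.IsSubsystemOf F'' := subsystem_of_pprime hTp hEs hTS'' fun P hP α hα ho =>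
    pprime_mem_of_index hF''i (hP.trans hTS'') (sub_autGroup h.sub hP hα) ho
  refine ⟨S'', F'', hF''s, hinv'', hsub'', ?_, ?_, ?_⟩
  · intro x hx
    refine hmem.2 ⟨h.cen hx, 1, N'.one_mem, fun t => ?_⟩
    have h1 := mem_centralizer_iff'.1 hx.2 t t.2
    rw [h1]
    rfl
  · have hTn : F''.StronglyClosed T := (inv_mid hS hE hinv'' hF''s hsub'').closed
    refine autGroup_le_of_pprime (fullyAutomized_of_fullyNormalized hS''p hF''s (fullyNormalized_of_stronglyClosed hTn)) ?_ ?_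
    · intro α hα
      obtain ⟨s, hs, h1⟩ := mem_autInducedBy_iff.1 hα
      obtain ⟨-, α', hα', h2⟩ := hmem.1 hs
      have h3 : α = α' := by
        apply MulEquiv.ext
        intro x
        apply Subtype.ext
        rw [h1, h2]
      rw [h3]; exact hα'
    · intro α hα ho
      exact hpp α (sub_autGroup hF''i.1 hTS'' hα) ho
  · intro U V Finf L hFinf hL
    obtain ⟨X, Xinf, hX⟩ := exists_limit _ _ hS' F' h.sat rfl rfl
    exact (h.lim hFinf hX).trans (limit_of_index hS' h.sat hF''s hF''i hX hL)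

end

end Cfsg.Agent.Lib.H34Solv
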