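import Mathlib
import Cfsg.Agent.Lib.H34Solv

/-!
# Reduction to normal subsystems: the subsystem over `T C_S(T)` (helper34)
-/

set_option autoImplicit false

universe u v

namespace Cfsg.Agent.Lib.H34Solv

open Cfsg Cfsg.FusionSystem Cfsg.Agent.Lib.FusionBasic Cfsg.Agent.Lib.FusionSat Cfsg.Agent.Lib.FusionNormal
  Cfsg.Agent.Lib.FusionInvar Cfsg.Agent.Lib.FusionTools Cfsg.Agent.Lib.FusionPP Cfsg.Agent.Lib.FusionStrong
  Cfsg.Agent.Lib.FusionSys Cfsg.Agent.Lib.FusionFrat Cfsg.Agent.Lib.FusionSub Cfsg.Agent.Lib.FusionPrime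
  Cfsg.Agent.Lib.FusionTC Cfsg.Agent.Lib.FusionRes Cfsg.Agent.Lib.FusionPIdx Cfsg.Agent.Lib.FusionPPower
  Cfsg.Agent.Lib.H34Limit Cfsg.Agent.Lib.H34PIndex Cfsg.Agent.Lib.H34PIndex4

section

variable {Ω : Type*} [Group Ω] {S S' T U : Subgroup Ω} {F : FusionSystem S} {F' : FusionSystem S'} {E : FusionSystem T}
  {P Q R : Subgroup Ω} {a b f g : Ω → Ω} {p : ℕ}

theorem exists_chain [Finite S] [Fact p.Prime] (hS : IsPGroup p S) (hF : F.IsSaturated p) (hEs : E.IsSaturated p)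
    (hE : Inv E F) {n : ℕ} (N : Fin (n + 1) → Subgroup (MulAut T)) (h0 : E.autGroup T ≤ N 0)
    (hlast : N (Fin.last n) = F.autGroup T) (hmono : Monotone N)
    (hnorm : ∀ i, ∀ α ∈ F.autGroup T, ∀ β ∈ N i, α * β * α⁻¹ ∈ N i)
    (hrel : ∀ i : Fin n, (∃ m : ℕ, (N i.castSucc).relIndex (N i.succ) = p ^ m) ∨
      ((N i.castSucc).relIndex (N i.succ)).Coprime p) :
    ∀ i, ∃ (S' : Subgroup Ω) (F' : FusionSystem S'), St F E p (N i) F' := by
  have hle : ∀ i, N i ≤ F.autGroup T := fun i => hlast ▸ hmono (Fin.le_last i)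
  intro i
  induction i using Fin.reverseInduction with
  | last =>
    exact ⟨S, F, hF, inv_refl F, hE.sub, centralizerIn_le S T, by rw [hlast], fun h1 h2 =>
      limit_unique_aux h1 hS h2 (Same.refl _)⟩
  | cast i ih =>
    obtain ⟨S', F', h⟩ := ih
    have hEi : E.autGroup T ≤ N i.castSucc := h0.trans (hmono (Fin.zero_le _))
    rcases hrel i with ⟨m, hm⟩ | hm
    · exact step_ppower hS hEs hE hEi (hnorm _) (hle _) hm h
    · obtain ⟨F'', hF''⟩ := step_pprime hS hEs hE hEi (hnorm _) (hle _) hm h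
      exact ⟨S', F'', hF''⟩

theorem map_conj_mem {M : Type*} [Group M] {A : Subgroup M} {K : Subgroup A} (hK : K.Normal) {α β : M} (hα : α ∈ A)
    (hβ : β ∈ K.map A.subtype) : α * β * α⁻¹ ∈ K.map A.subtype := by
  obtain ⟨β', hβ', rfl⟩ := hβ
  exact ⟨⟨α, hα⟩ * β' * ⟨α, hα⟩⁻¹, hK.conj_mem β' hβ' _, rfl⟩

theorem exists_final [Finite S] [Fact p.Prime] (hS : IsPGroup p S) (hF : F.IsSaturated p) (hEs : E.IsSaturated p)
    (hE : Inv E F) [hn : ((E.autGroup T).subgroupOf (F.autGroup T)).Normal]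
    (hsolv : IsPSolvable p (↥(F.autGroup T) ⧸ (E.autGroup T).subgroupOf (F.autGroup T))) :
    ∃ (S' : Subgroup Ω) (F' : FusionSystem S'), St F E p (E.autGroup T) F' := by
  obtain ⟨n, H, hH0, hHl, hHm, hHn, hHr⟩ := hsolv
  have hTS := hE.le
  have hEA : E.autGroup T ≤ F.autGroup T := sub_autGroup hE.sub le_rfl
  obtain ⟨K, hK⟩ : ∃ K, K = (E.autGroup T).subgroupOf (F.autGroup T) := ⟨_, rfl⟩
  obtain ⟨N, hN⟩ : ∃ N : Fin (n + 1) → Subgroup (MulAut T), N = fun i =>
    ((H i).comap (QuotientGroup.mk' ((E.autGroup T).subgroupOf (F.autGroup T)))).map (F.autGroup T).subtype := ⟨_, rfl⟩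
  have hN0 : N 0 = E.autGroup T := by
    rw [hN]
    show ((H 0).comap (QuotientGroup.mk' _)).map _ = _
    rw [hH0, MonoidHom.comap_bot, QuotientGroup.ker_mk', Subgroup.subgroupOf_map_subtype, inf_eq_left.2 hEA]
  have hNl : N (Fin.last n) = F.autGroup T := by
    rw [hN]
    show ((H (Fin.last n)).comap (QuotientGroup.mk' _)).map _ = _
    rw [hHl, Subgroup.comap_top, ← MonoidHom.range_eq_map, Subgroup.range_subtype]
  have h1 := exists_chain hS hF hEs hE N hN0.ge hNl ?_ ?_ ?_ 0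
  · rwa [hN0] at h1
  · intro i j hij
    rw [hN]
    exact Subgroup.map_mono (Subgroup.comap_mono (hHm hij))
  · intro i α hα β hβ
    rw [hN] at hβ ⊢
    have h2 : ((H i).comap (QuotientGroup.mk' ((E.autGroup T).subgroupOf (F.autGroup T)))).Normal := (hHn i).comap _
    exact map_conj_mem h2 hα hβ
  · intro i
    have h2 : (N i.castSucc).relIndex (N i.succ) = (H i.castSucc).relIndex (H i.succ) := by
      rw [hN]
      show (((H i.castSucc).comap (QuotientGroup.mk' _)).map _).relIndex (((H i.succ).comap (QuotientGroup.mk' _)).map _) = _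
      rw [Subgroup.relIndex_map_map_of_injective _ _ (Subgroup.subtype_injective _), Subgroup.relIndex_comap,
        Subgroup.map_comap_eq_self_of_surjective (QuotientGroup.mk'_surjective _)]
    rw [h2]
    exact hHr i

/-- `S' = T C_S(T)` at the end of the descent -/
theorem St.eq_sup [Finite S] [Fact p.Prime] (hS : IsPGroup p S) (hE : Inv E F) (hEs : E.IsSaturated p)
    (h : St F E p (E.autGroup T) F') : S' = T ⊔ centralizerIn S T := by
  have hS'S := h.inv.le
  have hTS' : T ≤ S' := sub_le h.sub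
  have hTf : Finite T := finite_of_le hE.le
  have hTp := isPGroup_of_le hS hE.le
  have hcl := (inv_mid hS hE h.inv h.sat h.sub).closed
  refine le_antisymm ?_ (sup_le hTS' h.cen)
  intro x hx
  have hxn := normalizes_of_stronglyClosed hcl hx
  have h1 : autInducedBy S' T ≤ E.autGroup T := (autInducedBy_le_autGroup hTS' le_rfl).trans h.aut
  obtain ⟨χ, hχ, h2⟩ := exists_conj_le_autInducedBy
    (fullyAutomized_of_fullyNormalized hTp hEs (isFullyNormalized_top E)) (autInducedBy S' T) h1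
    (isPGroup_autInducedBy (isPGroup_of_le hS hS'S) le_rfl)
  have h3 := h2 _ (conjAut_mem_autInducedBy hxn hx)
  rw [← inn_eq_autInducedBy] at h3
  have h4 := Subgroup.Normal.conj_mem (inferInstance : (Inn T).Normal) _ h3 χ⁻¹
  have h5 : χ⁻¹ * (χ * conjAut T x hxn * χ⁻¹) * χ⁻¹⁻¹ = conjAut T x hxn := by group
  rw [h5, inn_eq_autInducedBy] at h4
  obtain ⟨t, ht, h6⟩ := mem_autInducedBy_iff.1 h4
  have h7 : t⁻¹ * x ∈ centralizerIn S T := by
    refine ⟨S.mul_mem (S.inv_mem (hE.le ht)) (hS'S hx), mem_centralizer_iff'.2 fun y hy => ?_⟩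
    have h8 := h6 ⟨y, hy⟩
    rw [conjAut_apply] at h8
    calc t⁻¹ * x * y * (t⁻¹ * x)⁻¹ = t⁻¹ * (x * y * x⁻¹) * t := by group
      _ = y := by rw [h8]; group
  have h9 := Subgroup.mul_mem _ (Subgroup.mem_sup_left (T := centralizerIn S T) ht) (Subgroup.mem_sup_right (S := T) h7)
  rwa [mul_inv_cancel_left] at h9

theorem St.isNormalIn [Finite S] (hF : F.IsSaturated p) {N : Subgroup (MulAut T)} (h : St F E p N F') :
    F'.IsNormalIn F p := by
  refine isNormalIn_iff.2 ⟨h.sat, hF, h.inv, ext_of_lam h.inv.closed h.inv.sub fun a ha => ?_⟩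
  have ha' := sub_fiso h.inv.sub ha
  have hTS' : T ≤ S' := sub_le h.sub
  have hle : centralizerIn S S' ≤ S' := fun x hx => h.cen ⟨hx.1, Subgroup.centralizer_le hTS' hx.2⟩
  refine ⟨a, ha'.1.restrict (sup_le le_rfl hle), fun _ _ => rfl, fun c hc => ?_⟩
  exact S'.mul_mem (S'.inv_mem (hle hc)) (ha.mem (hle hc))

end

end Cfsg.Agent.Lib.H34Solv
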