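import Mathlib
import Cfsg.Agent.Lib.H34Solv2
import Cfsg.Agent.Lib.FusionNormSat

/-!
# Extensions commuting with an automorphism trivial on `T` (helper34)
-/

set_option autoImplicit false

universe u v

namespace Cfsg.Agent.Lib.H34CenExt

open Cfsg Cfsg.FusionSystem Cfsg.Agent.Lib.FusionBasic Cfsg.Agent.Lib.FusionSat Cfsg.Agent.Lib.FusionNormal
  Cfsg.Agent.Lib.FusionInvar Cfsg.Agent.Lib.FusionTools Cfsg.Agent.Lib.FusionPP Cfsg.Agent.Lib.FusionStrong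
  Cfsg.Agent.Lib.FusionSys Cfsg.Agent.Lib.FusionFrat Cfsg.Agent.Lib.FusionSub Cfsg.Agent.Lib.FusionPrime
  Cfsg.Agent.Lib.FusionTC Cfsg.Agent.Lib.FusionRes Cfsg.Agent.Lib.FusionPIdx Cfsg.Agent.Lib.FusionPPower

theorem exists_commute {M : Type*} [Group M] [Finite M] {p q : ℕ} [Fact p.Prime] [Fact q.Prime] (hpq : q ≠ p)
    {A : Subgroup M} (hA : IsPGroup p A) {κ b : M} (hκ : κ ^ q = 1) (hn : ∀ a ∈ A, κ * a * κ⁻¹ ∈ A)
    (hb : b⁻¹ * (κ * b * κ⁻¹) ∈ A) : ∃ a ∈ A, κ * (b * a) * κ⁻¹ = b * a := by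
  classical
  have hfin : Fintype A := Fintype.ofFinite A
  let f : Function.End A := fun a => ⟨b⁻¹ * (κ * (b * a) * κ⁻¹), by
    have h1 := A.mul_mem hb (hn a a.2)
    have h2 : b⁻¹ * (κ * b * κ⁻¹) * (κ * a * κ⁻¹) = b⁻¹ * (κ * (b * a) * κ⁻¹) := by group
    rwa [h2] at h1⟩
  have hpow : ∀ (n : ℕ) (a : A), (((f ^ n) a : A) : M) = b⁻¹ * (κ ^ n * (b * a) * (κ ^ n)⁻¹) := by
    intro n
    induction n with
    | zero =>
      intro a
      rw [pow_zero, pow_zero]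
      show (a : M) = b⁻¹ * (1 * (b * (a : M)) * 1⁻¹)
      group
    | succ n ih =>
      intro a
      rw [pow_succ']
      show b⁻¹ * (κ * (b * ((f ^ n) a : A)) * κ⁻¹) = _
      rw [ih, pow_succ']
      group
  have hf : f ^ q ^ 1 = 1 := by
    rw [pow_one]
    funext a
    apply Subtype.ext
    rw [hpow, hκ]
    show b⁻¹ * (1 * (b * (a : M)) * 1⁻¹) = a
    group
  have h1 := Equiv.Perm.card_fixedPoints_modEq (p := q) (n := 1) hf
  obtain ⟨k, hk⟩ := IsPGroup.iff_card.1 hA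
  rw [← Nat.card_eq_fintype_card, hk] at h1
  by_cases h2 : IsEmpty (Function.fixedPoints f)
  · rw [Fintype.card_eq_zero] at h1
    have h3 := (Nat.modEq_zero_iff_dvd).1 h1
    exact absurd ((Nat.prime_dvd_prime_iff_eq Fact.out Fact.out).1 ((Fact.out : q.Prime).dvd_of_dvd_pow h3)) hpq
  · rw [not_isEmpty_iff] at h2
    obtain ⟨⟨a, ha⟩⟩ := h2
    refine ⟨a, a.2, ?_⟩
    have h3 : b⁻¹ * (κ * (b * a) * κ⁻¹) = a := congrArg Subtype.val ha
    calc κ * (b * (a : M)) * κ⁻¹ = b * (b⁻¹ * (κ * (b * (a : M)) * κ⁻¹)) := by group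
      _ = b * (a : M) := by rw [h3]

section

variable {Ω : Type*} [Group Ω] {S T U : Subgroup Ω} {F : FusionSystem S} {E : FusionSystem T}
  {P Q R D X Y : Subgroup Ω} {a b f g φ κ : Ω → Ω} {p : ℕ}

theorem isPGroup_stabT [Finite S] [Fact p.Prime] (hS : IsPGroup p S) (hX : X ≤ S) :
    IsPGroup p (stabT F T X) := by
  obtain ⟨k, hk⟩ := IsPGroup.iff_card.1 hS
  rintro ⟨α, h1, h2, h3⟩
  refine ⟨k, Subtype.ext ?_⟩
  show α ^ p ^ k = 1
  refine eq_one_of_autFun fun x hx => ?_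
  have hα := fmap_of_autGroup hX h1
  rw [autFun_pow_apply _ _ hx]
  have h4 := H34PIndex.iter_of_fix (Q := X ⊓ T) hα inf_le_left (fun y hy => h2 y hy.1 hy.2)
    (fun m hm => ⟨X.mul_mem (X.inv_mem hm) (autFun_mem _ hm), h3 m hm⟩) (p ^ k) hx
  rw [h4]
  have h5 : (x⁻¹ * autFun α x) ^ p ^ k = 1 := by
    rw [← hk]
    have hmem : x⁻¹ * autFun α x ∈ S := S.mul_mem (S.inv_mem (hX hx)) (hX (autFun_mem _ hx))
    exact congrArg Subtype.val (pow_card_eq_one' (G := S) (x := ⟨_, hmem⟩))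
  rw [h5, mul_one]

/-- Every `E`-map on a `T`-centric subgroup has a good extension. -/
theorem lam_all [Finite S] [Fact p.Prime] (hS : IsPGroup p S) (hF : F.IsSaturated p) (hEs : E.IsSaturated p)
    (hE : Inv E F) (hExt : Ext E F) (hP : TC F T P) (hf : FMap E P f) : Lam F T P f := by
  have hT := hE.closed
  have hTf : Finite T := finite_of_le hT.1
  obtain ⟨a, f₀, ha, hf₀, h1⟩ := gen0_frat (isPGroup_of_le hS hT.1) hEs P f hf
  have h2 := lam_gen0 hS hF hEs hE hf₀ hP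
  obtain ⟨R, hR⟩ := hf₀.exists_iso
  have hRF := sub_fiso (sub_trans gen0_sub hE.sub) hR
  obtain ⟨b, hb, hb1, hb2⟩ := hExt a ha
  have hRT : R ≤ T := hR.le_right
  have haF := sub_fiso hE.sub ha
  have h3 : Lam F T R a := ⟨b, hb.1.restrict (sup_le_sup_right hRT _), fun x hx => hb1 x (hRT hx), fun c hc => (hb2 c hc).1⟩
  exact lam_congr (lam_comp hT hP hRF (haF.1.restrict hRT) h2 h3) fun x hx => (h1 x hx).symm

/-- a map congruent to the identity modulo `T` on a generating set is congruent to the identity modulo `T` -/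
theorem mod_sup (hT : F.StronglyClosed T) (hg : FMap F (P ⊔ D) g) (h1 : ∀ x ∈ P, x⁻¹ * g x ∈ T)
    (h2 : ∀ x ∈ D, x⁻¹ * g x ∈ T) : ∀ x ∈ P ⊔ D, x⁻¹ * g x ∈ T := by
  have hle := hg.le
  let H : Subgroup Ω :=
    { carrier := {x | x ∈ P ⊔ D ∧ x⁻¹ * g x ∈ T}
      one_mem' := ⟨Subgroup.one_mem _, by rw [hg.map_one, inv_one, one_mul]; exact T.one_mem⟩
      mul_mem' := by
        rintro x y ⟨hx, hx'⟩ ⟨hy, hy'⟩
        refine ⟨Subgroup.mul_mem _ hx hy, ?_⟩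
        rw [hg.map_mul hx hy]
        have h3 : (x * y)⁻¹ * (g x * g y) = (y⁻¹ * (x⁻¹ * g x) * y⁻¹⁻¹) * (y⁻¹ * g y) := by group
        rw [h3]
        refine T.mul_mem ?_ hy'
        exact (Subgroup.mem_normalizer_iff.1 (normalizes_of_stronglyClosed hT (S.inv_mem (hle hy))) _).1 hx'
      inv_mem' := by
        rintro x ⟨hx, hx'⟩
        refine ⟨Subgroup.inv_mem _ hx, ?_⟩
        rw [hg.map_inv hx]
        have h3 : x⁻¹⁻¹ * (g x)⁻¹ = x * (x⁻¹ * g x)⁻¹ * x⁻¹ := by group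
        rw [h3]
        exact (Subgroup.mem_normalizer_iff.1 (normalizes_of_stronglyClosed hT (hle hx)) _).1 (T.inv_mem hx') }
  have hH : P ⊔ D ≤ H := sup_le (fun x hx => ⟨Subgroup.mem_sup_left hx, h1 x hx⟩) (fun x hx => ⟨Subgroup.mem_sup_right hx, h2 x hx⟩)
  exact fun x hx => (hH hx).2

/-- `(Q ⊔ D) ∩ T = Q` when `Q` is `T`-centric and `D` centralizes `T` -/
theorem sup_inf_le (hT : F.StronglyClosed T) (hQ : TC F T Q) (hD : D ≤ centralizerIn S T) {x : Ω} (hx : x ∈ Q ⊔ D)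
    (hxT : x ∈ T) : x ∈ Q := by
  have hn : D ≤ Subgroup.normalizer (Q : Set Ω) := fun d hd =>
    centralizer_le_normalizer' Q (Subgroup.centralizer_le hQ.1 (hD hd).2)
  rw [sup_comm] at hx
  obtain ⟨d, hd, q, hq, rfl⟩ := (mem_sup_of_normalizes hn).1 hx
  have hdT : d ∈ T := by
    have := T.mul_mem hxT (T.inv_mem (hQ.1 hq))
    rwa [mul_inv_cancel_right] at this
  exact Q.mul_mem (hQ.cent hT ⟨hdT, Subgroup.centralizer_le hQ.1 (hD hd).2⟩) hq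

/-- An automorphism of prime order `q ≠ p` of `T D` trivial on `T`: the automorphisms of `E` extend to maps fixing
`[D, κ]`. -/
theorem fix_comm [Finite S] [Fact p.Prime] (hS : IsPGroup p S) (hT : F.StronglyClosed T) {q : ℕ} [Fact q.Prime] (hqp : q ≠ p)
    (hD : D ≤ centralizerIn S T) (hκ : FMap F (T ⊔ D) κ) (hκT : ∀ x ∈ T, κ x = x) (hκD : ∀ x ∈ D, κ x ∈ D)
    (hκq : ∀ x ∈ T ⊔ D, κ^[q] x = x) (hQ : TC F T Q) (hφ : FIso F Q Q φ) (hl : Lam F T Q φ) :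
    ∃ b, FMap F (Q ⊔ D) b ∧ (∀ x ∈ Q, b x = φ x) ∧ ∀ d ∈ D, b (d⁻¹ * κ d) = d⁻¹ * κ d := by
  obtain ⟨k, hk, k1, k2⟩ := hl
  obtain ⟨X, hX⟩ : ∃ X, X = Q ⊔ D := ⟨_, rfl⟩
  have hQX : Q ≤ X := hX ▸ le_sup_left
  have hDX : D ≤ X := hX ▸ le_sup_right
  have hXT : X ≤ T ⊔ D := by rw [hX]; exact sup_le_sup_right hQ.1 D
  have hXS : X ≤ S := hXT.trans hκ.le
  have hXC : X ≤ Q ⊔ centralizerIn S T := by rw [hX]; exact sup_le_sup_left hD Q
  have hXinf : ∀ {x : Ω}, x ∈ X → x ∈ T → x ∈ Q := fun hx hxT => sup_inf_le hT hQ hD (hX ▸ hx) hxT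
  have hkX : FMap F X k := hk.restrict hXC
  have hkXX : ∀ x ∈ X, k x ∈ X := by
    rw [hX]
    refine map_sup_mem (hX ▸ hkX) (fun x hx => ?_) (fun d hd => ?_)
    · rw [k1 x hx]; exact Subgroup.mem_sup_left (hφ.mem hx)
    · have h3 := lam_mem hT hQ hφ hk k1 k2 (hD hd)
      have h4 := Subgroup.mul_mem _ (Subgroup.mem_sup_right (S := Q) hd) (Subgroup.mem_sup_left (T := D) h3)
      rwa [mul_inv_cancel_left] at h4
  have hkmod : ∀ x ∈ X, x⁻¹ * k x ∈ T := by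
    rw [hX]
    refine mod_sup hT (hX ▸ hkX) (fun x hx => ?_) (fun d hd => k2 d (hD hd))
    rw [k1 x hx]
    exact T.mul_mem (T.inv_mem (hQ.1 hx)) (hQ.1 (hφ.mem hx))
  have hκX : FMap F X κ := hκ.restrict hXT
  have hκXX : ∀ x ∈ X, κ x ∈ X := by
    rw [hX]
    refine map_sup_mem (hX ▸ hκX) (fun x hx => ?_) (fun d hd => Subgroup.mem_sup_right (hκD d hd))
    rw [hκT x (hQ.1 hx)]; exact Subgroup.mem_sup_left hx
  obtain ⟨β, hβ, hβk⟩ := exists_aut_of_fmap hkX hkXX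
  obtain ⟨κ', hκ', hκ'κ⟩ := exists_aut_of_fmap hκX hκXX
  have hβ1 : ∀ x ∈ X, autFun β x = k x := fun x hx => by rw [autFun_of_mem β hx, hβk]
  have hκ1 : ∀ x ∈ X, autFun κ' x = κ x := fun x hx => by rw [autFun_of_mem κ' hx, hκ'κ]
  have hXf : Finite X := finite_of_le hXS
  have hκ'q : κ' ^ q = 1 := by
    refine eq_one_of_autFun fun x hx => ?_
    rw [autFun_pow_apply _ _ hx, iter_congr hκ1 (fun y hy => autFun_mem _ hy) hx]
    exact hκq x (hXT hx)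
  have hmem : β⁻¹ * (κ' * β * κ'⁻¹) ∈ stabT F T X := by
    refine ⟨Subgroup.mul_mem _ (Subgroup.inv_mem _ hβ) (Subgroup.mul_mem _ (Subgroup.mul_mem _ hκ' hβ)
      (Subgroup.inv_mem _ hκ')), fun x hx hxT => ?_, fun x hx => ?_⟩
    · have h1 : autFun κ'⁻¹ x = x := by
        have h2 : autFun κ' x = x := by rw [hκ1 x hx, hκT x hxT]
        have h3 := autFun_inv_apply κ' hx
        rwa [h2] at h3
      have hxQ := hXinf hx hxT
      have h4 : autFun β x ∈ T := by rw [hβ1 x hx, k1 x hxQ]; exact hQ.1 (hφ.mem hxQ)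
      have h5 : autFun β x ∈ X := autFun_mem _ hx
      rw [autFun_mul _ _ hx, autFun_mul _ _ hx, h1, autFun_mul _ _ hx, hκ1 _ h5, hκT _ h4, autFun_inv_apply _ hx]
    · obtain ⟨y, hy⟩ : ∃ y, y = autFun κ'⁻¹ x := ⟨_, rfl⟩
      have hyX : y ∈ X := hy ▸ autFun_mem _ hx
      have hxy : x = κ y := by rw [← hκ1 y hyX, hy, autFun_apply_inv _ hx]
      have h1 := hkmod y hyX
      have hkyX := hkXX y hyX
      have h2 : κ (k y) = x * (y⁻¹ * k y) := by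
        have h3 : k y = y * (y⁻¹ * k y) := by group
        have h4 : y⁻¹ * k y ∈ X := X.mul_mem (X.inv_mem hyX) hkyX
        conv_lhs => rw [h3]
        rw [hκX.map_mul hyX h4, ← hxy, hκT _ h1]
      rw [autFun_mul _ _ hx, autFun_mul _ _ hx, ← hy, autFun_mul _ _ hyX, hβ1 y hyX, hκ1 _ hkyX, h2]
      -- `β⁻¹ (x t) ≡ x`
      have hxt : x * (y⁻¹ * k y) ∈ X := X.mul_mem hx (X.mul_mem (X.inv_mem hyX) hkyX)
      obtain ⟨w, hw⟩ : ∃ w, w = autFun β⁻¹ (x * (y⁻¹ * k y)) := ⟨_, rfl⟩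
      have hwX : w ∈ X := hw ▸ autFun_mem _ hxt
      have h5 : k w = x * (y⁻¹ * k y) := by rw [← hβ1 w hwX, hw, autFun_apply_inv _ hxt]
      rw [← hw]
      have h6 := hkmod w hwX
      rw [h5] at h6
      have h7 : x⁻¹ * w = (y⁻¹ * k y) * (w⁻¹ * (x * (y⁻¹ * k y)))⁻¹ := by group
      rw [h7]
      exact T.mul_mem h1 (T.inv_mem h6)
  obtain ⟨α, hα, h1⟩ := exists_commute hqp (isPGroup_stabT hS hXS) hκ'q
    (fun a ha => stabT_normal hT hXS κ' hκ' a ha) hmem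
  have hb : FMap F X (autFun (β * α)) := fmap_of_autGroup hXS (Subgroup.mul_mem _ hβ hα.1)
  have hbQ : ∀ x ∈ Q, autFun (β * α) x = φ x := fun x hx => by
    rw [autFun_mul _ _ (hQX hx), hα.2.1 x (hQX hx) (hQ.1 hx), hβ1 x (hQX hx), k1 x hx]
  have hbmod : ∀ x ∈ X, x⁻¹ * autFun (β * α) x ∈ T := by
    intro x hx
    have h2 := hα.2.2 x hx
    have hαX := autFun_mem α hx
    have h3 := hkmod _ hαX
    rw [autFun_mul _ _ hx, hβ1 _ hαX]
    have h4 : x⁻¹ * k (autFun α x) = (x⁻¹ * autFun α x) * ((autFun α x)⁻¹ * k (autFun α x)) := by group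
    rw [h4]
    exact T.mul_mem h2 h3
  have hcomm : ∀ x ∈ X, autFun (β * α) (κ x) = κ (autFun (β * α) x) := by
    intro x hx
    have h2 : κ' * (β * α) = β * α * κ' := mul_inv_eq_iff_eq_mul.1 h1
    rw [← hκ1 x hx, ← autFun_mul _ _ hx, ← h2, autFun_mul _ _ hx, hκ1 _ (autFun_mem _ hx)]
  refine ⟨autFun (β * α), hX ▸ hb, hbQ, fun d hd => ?_⟩
  have hdX := hDX hd
  have hκdX := hDX (hκD d hd)
  obtain ⟨z, hz⟩ : ∃ z, z = d⁻¹ * autFun (β * α) d := ⟨_, rfl⟩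
  have hzT : z ∈ T := hz ▸ hbmod d hdX
  have hzX : z ∈ X := by rw [hz]; exact X.mul_mem (X.inv_mem hdX) (autFun_mem _ hdX)
  have hbd : autFun (β * α) d = d * z := by rw [hz]; group
  have hyC : d⁻¹ * κ d ∈ centralizerIn S T := Subgroup.mul_mem _ (Subgroup.inv_mem _ (hD hd)) (hD (hκD d hd))
  rw [hb.map_mul (X.inv_mem hdX) hκdX, hb.map_inv hdX, hcomm d hdX, hbd, hκX.map_mul hdX hzX, hκT z hzT]
  have h8 := mem_centralizer_iff'.1 hyC.2 z⁻¹ (T.inv_mem hzT)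
  calc (d * z)⁻¹ * (κ d * z) = z⁻¹ * (d⁻¹ * κ d) * z := by group
    _ = (d⁻¹ * κ d * z⁻¹ * (d⁻¹ * κ d)⁻¹) * (d⁻¹ * κ d) * z := by rw [h8]
    _ = d⁻¹ * κ d := by group

end

end Cfsg.Agent.Lib.H34CenExt
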