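import Mathlib
import Cfsg.Agent.Lib.H34CenExt

/-!
# When the centralizer of `E` lies in `T` (helper34)
-/

set_option autoImplicit false

universe u v

namespace Cfsg.Agent.Lib.H34CenExt

open Cfsg Cfsg.FusionSystem Cfsg.Agent.Lib.FusionBasic Cfsg.Agent.Lib.FusionSat Cfsg.Agent.Lib.FusionNormal
  Cfsg.Agent.Lib.FusionInvar Cfsg.Agent.Lib.FusionTools Cfsg.Agent.Lib.FusionPP Cfsg.Agent.Lib.FusionStrong
  Cfsg.Agent.Lib.FusionSys Cfsg.Agent.Lib.FusionFrat Cfsg.Agent.Lib.FusionSub Cfsg.Agent.Lib.FusionPrime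
  Cfsg.Agent.Lib.FusionTC Cfsg.Agent.Lib.FusionRes Cfsg.Agent.Lib.FusionPIdx Cfsg.Agent.Lib.FusionPPower
  Cfsg.Agent.Lib.FusionNormSat

section

variable {Ω : Type*} [Group Ω] {S T U : Subgroup Ω} {F : FusionSystem S} {E : FusionSystem T}
  {P Q R D X Y : Subgroup Ω} {a b f g φ κ : Ω → Ω} {p : ℕ}

/-- `E` lies in the centralizer system of `Y` if automorphisms of `T`-centric subgroups extend to maps fixing `Y`. -/
theorem sub_cent [Finite S] [Fact p.Prime] (hS : IsPGroup p S) (hEs : E.IsSaturated p) (hE : Inv E F)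
    (hY : Y ≤ centralizerIn S T) (h : ∀ (Q : Subgroup Ω) (φ : Ω → Ω), TC F T Q → FIso E Q Q φ →
      ∃ g, FMap F (Q ⊔ Y) g ∧ (∀ x ∈ Q, g x = φ x) ∧ ∀ y ∈ Y, g y = y) :
    ∀ C : FusionSystem (centralizerIn S Y), F.IsCentralizerSystem Y C → E.IsSubsystemOf C := by
  intro C hC
  have hT := hE.closed
  have hTf : Finite T := finite_of_le hT.1
  rw [isCentralizerSystem_iff] at hC
  have hTY : T ≤ centralizerIn S Y := fun t ht => ⟨hT.1 ht, fun y hy => ((hY hy).2 t ht).symm⟩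
  rw [isSubsystemOf_iff]
  refine alperin_induction_cr (isPGroup_of_le hS hT.1) hEs (fun P f => FMap C P f) ?_ ?_ ?_ ?_ ?_
  · intro P f g _ h1 h2
    exact h1.congr h2
  · intro P s hP hs
    exact fmap_conj _ (hP.trans hTY) (hTY hs)
  · intro P Q f g _ h1 _ h2 h3
    exact h1.comp h2 h3
  · intro P Q f g hf h1 hg h2 h3
    have h4 : FIso C P Q f := ⟨h1, hf.2⟩
    obtain ⟨k, hk, k1, k2⟩ := h4.symm
    refine hk.1.congr fun y hy => ?_
    have h5 : f (k y) = f (g y) := by rw [k2 y hy, h3 y hy]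
    exact h1.inj (hk.mem hy) (hg.mem hy) h5
  · intro P a _ hc _ ha
    obtain ⟨g, hg, h1, h2⟩ := h P a ((centric_iff_tc hE).1 hc) ha
    exact (hC P a).2 ⟨hc.1.trans hTY, fun x hx => hTY (hc.1 (ha.mem hx)), g, hg, h1, h2⟩

/-- the maps fixed by a map form a subgroup containing the closure -/
theorem fix_closure {s : Set Ω} (hs : Subgroup.closure s ≤ X) (hg : FMap F X g) (h : ∀ y ∈ s, g y = y) :
    ∀ y ∈ Subgroup.closure s, g y = y := by
  intro y hy
  induction hy using Subgroup.closure_induction with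
  | mem y hy => exact h y hy
  | one => exact hg.map_one
  | mul a b ha hb h1 h2 => rw [hg.map_mul (hs ha) (hs hb), h1, h2]
  | inv a ha h1 => rw [hg.map_inv (hs ha), h1]

/-- the standing hypotheses -/
structure Cx (E : FusionSystem T) (F : FusionSystem S) (p : ℕ) : Prop where
  hS : IsPGroup p S
  hF : F.IsSaturated p
  hEs : E.IsSaturated p
  hE : Inv E F
  hExt : Ext E F
  hCE : ∀ Y : Subgroup Ω, Y ≤ centralizerIn S T → (∀ C : FusionSystem (centralizerIn S Y),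
    F.IsCentralizerSystem Y C → E.IsSubsystemOf C) → Y ≤ T

/-- There is no map of prime order `q ≠ p` on `T D` trivial on `T`. -/
theorem trivial_of_order [Finite S] [Fact p.Prime] (c : Cx E F p) {q : ℕ} [Fact q.Prime] (hqp : q ≠ p)
    (hD : D ≤ centralizerIn S T) (hκ : FMap F (T ⊔ D) κ) (hκT : ∀ x ∈ T, κ x = x) (hκD : ∀ x ∈ D, κ x ∈ D)
    (hκq : ∀ x ∈ T ⊔ D, κ^[q] x = x) : ∀ x ∈ T ⊔ D, κ x = x := by
  have hT := c.hE.closed
  obtain ⟨Y, hY⟩ : ∃ Y, Y = Subgroup.closure {y | ∃ d ∈ D, y = d⁻¹ * κ d} := ⟨_, rfl⟩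
  have hYD : Y ≤ D := by
    rw [hY, Subgroup.closure_le]
    rintro _ ⟨d, hd, rfl⟩
    exact D.mul_mem (D.inv_mem hd) (hκD d hd)
  have hYT : Y ≤ T := by
    refine c.hCE Y (hYD.trans hD) (sub_cent c.hS c.hEs c.hE (hYD.trans hD) ?_)
    intro Q φ hQ hφ
    have hφF := sub_fiso c.hE.sub hφ
    obtain ⟨b, hb, h1, h2⟩ := fix_comm c.hS hT hqp hD hκ hκT hκD hκq hQ hφF
      (lam_all c.hS c.hF c.hEs c.hE c.hExt hQ hφ.1)
    refine ⟨b, hb.restrict (sup_le_sup_left hYD Q), h1, ?_⟩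
    rw [hY] at hYD ⊢
    refine fix_closure (hYD.trans le_sup_right) hb ?_
    rintro _ ⟨d, hd, rfl⟩
    exact h2 d hd
  have hmod : ∀ x ∈ T ⊔ D, x⁻¹ * κ x ∈ T := by
    refine mod_sup hT hκ (fun x hx => by rw [hκT x hx, inv_mul_cancel]; exact T.one_mem) (fun d hd => ?_)
    exact hYT (hY ▸ Subgroup.subset_closure ⟨d, hd, rfl⟩)
  intro x hx
  have h1 := H34PIndex.iter_of_fix (Q := T) hκ le_sup_left hκT hmod q hx
  rw [hκq x hx] at h1
  have h2 : (x⁻¹ * κ x) ^ q = 1 := by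
    have h3 : x * 1 = x * (x⁻¹ * κ x) ^ q := by rw [mul_one]; exact h1
    exact (mul_left_cancel h3).symm
  obtain ⟨k, hk⟩ := IsPGroup.iff_card.1 c.hS
  have h4 : (x⁻¹ * κ x) ^ p ^ k = 1 := by
    rw [← hk]
    exact congrArg Subtype.val (pow_card_eq_one' (G := S) (x := ⟨_, hT.1 (hmod x hx)⟩))
  have h5 : orderOf (x⁻¹ * κ x) ∣ Nat.gcd q (p ^ k) := Nat.dvd_gcd (orderOf_dvd_of_pow_eq_one h2) (orderOf_dvd_of_pow_eq_one h4)
  have h6 : Nat.gcd q (p ^ k) = 1 := Nat.Coprime.pow_right k ((Nat.coprime_primes Fact.out Fact.out).2 hqp)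
  rw [h6, Nat.dvd_one, orderOf_eq_one_iff, inv_mul_eq_one] at h5
  exact h5.symm

/-- An automorphism of `P`, `T ≤ P ≤ T C_S(T)`, trivial on `T`, has `p`-power order. -/
theorem order_of_trivial [Finite S] [Fact p.Prime] (c : Cx E F p) (hTP : T ≤ P) (hP : P ≤ T ⊔ centralizerIn S T)
    {κ : MulAut P} (hκ : κ ∈ F.autGroup P) (hκT : ∀ x ∈ T, autFun κ x = x) : ∃ k : ℕ, orderOf κ = p ^ k := by
  have hT := c.hE.closed
  have hPS : P ≤ S := hP.trans (sup_le hT.1 (centralizerIn_le S T))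
  have hPf : Finite P := finite_of_le hPS
  have hne : orderOf κ ≠ 0 := (orderOf_pos κ).ne'
  refine ⟨_, Nat.eq_prime_pow_of_unique_prime_dvd hne fun {q} hq hqd => ?_⟩
  by_contra hqp
  have hqf : Fact q.Prime := ⟨hq⟩
  obtain ⟨m, hm⟩ := hqd
  have hm0 : m ≠ 0 := by rintro rfl; rw [mul_zero] at hm; exact hne hm
  -- `κ ^ m` has order `q`
  obtain ⟨D, hD⟩ : ∃ D, D = P ⊓ centralizerIn S T := ⟨_, rfl⟩
  have hDC : D ≤ centralizerIn S T := hD ▸ inf_le_right
  have hPTD : T ⊔ D = P := by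
    refine le_antisymm (sup_le hTP (hD ▸ inf_le_left)) fun x hx => ?_
    have hn : centralizerIn S T ≤ Subgroup.normalizer (T : Set Ω) := fun d hd =>
      normalizes_of_stronglyClosed hT hd.1
    have h1 := hP hx
    rw [sup_comm] at h1
    obtain ⟨d, hd, t, ht, rfl⟩ := (mem_sup_of_normalizes hn).1 h1
    refine Subgroup.mul_mem _ (Subgroup.mem_sup_right ?_) (Subgroup.mem_sup_left ht)
    rw [hD]
    refine ⟨?_, hd⟩
    have := P.mul_mem hx (P.inv_mem (hTP ht))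
    rwa [mul_inv_cancel_right] at this
  have hl : κ ^ m ∈ F.autGroup P := Subgroup.pow_mem _ hκ m
  have hlf := fmap_of_autGroup hPS hl
  have hlT : ∀ x ∈ T, autFun (κ ^ m) x = x := by
    intro x hx
    rw [autFun_pow_apply _ _ (hTP hx)]
    exact Function.iterate_fixed (hκT x hx) m
  have hi : FIso F T T (autFun (κ ^ m)) := (FIso.refl F hT.1).congr fun x hx => (hlT x hx).symm
  have h1 := trivial_of_order (κ := autFun (κ ^ m)) c hqp hDC (by rw [hPTD]; exact hlf) hlT (by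
    intro d hd
    rw [hD] at hd ⊢
    refine ⟨autFun_mem _ hd.1, hPS (autFun_mem _ hd.1), ?_⟩
    exact hi.map_centralizer hlf hTP hd.1 hd.2.2) (by
    intro x hx
    rw [hPTD] at hx
    rw [← autFun_pow_apply _ _ hx, ← pow_mul, mul_comm m q, ← hm, pow_orderOf_eq_one, autFun_one hx])
  rw [hPTD] at h1
  have h2 : κ ^ m = 1 := eq_one_of_autFun h1
  have h3 := orderOf_dvd_of_pow_eq_one h2
  have h4 := Nat.le_of_dvd (Nat.pos_of_ne_zero hm0) h3
  have h5 := hq.two_le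
  rw [hm] at h4
  nlinarith [Nat.pos_of_ne_zero hm0]

/-- the automorphisms congruent to the identity modulo `T` -/
def modT (T P : Subgroup Ω) : Subgroup (MulAut P) where
  carrier := {β | ∀ x ∈ P, x⁻¹ * autFun β x ∈ T}
  one_mem' := fun x hx => by rw [autFun_one hx, inv_mul_cancel]; exact T.one_mem
  mul_mem' := by
    intro α β h1 h2 x hx
    rw [autFun_mul _ _ hx]
    have h3 : x⁻¹ * autFun α (autFun β x) = (x⁻¹ * autFun β x) * ((autFun β x)⁻¹ * autFun α (autFun β x)) := by group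
    rw [h3]
    exact T.mul_mem (h2 x hx) (h1 _ (autFun_mem _ hx))
  inv_mem' := by
    intro α h1 x hx
    have h2 := h1 _ (autFun_mem α⁻¹ hx)
    rw [autFun_apply_inv _ hx] at h2
    have h3 : x⁻¹ * autFun α⁻¹ x = ((autFun α⁻¹ x)⁻¹ * x)⁻¹ := by group
    rw [h3]
    exact T.inv_mem h2

theorem mem_modT {β : MulAut P} : β ∈ modT T P ↔ ∀ x ∈ P, x⁻¹ * autFun β x ∈ T := Iff.rfl

/-- `p'`-automorphisms of `P`, `T ≤ P ≤ T C_S(T)`, inducing an element of `Aut_E(T)` on `T`, are trivial modulo `T`. -/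
theorem mod_of_coprime [Finite S] [Fact p.Prime] (c : Cx E F p) (hTP : T ≤ P) (hP : P ≤ T ⊔ centralizerIn S T)
    {α : MulAut P} (hα : α ∈ F.autGroup P) (ho : (orderOf α).Coprime p) (hαE : FIso E T T (autFun α)) :
    α ∈ modT T P := by
  have hT := c.hE.closed
  have hPS : P ≤ S := hP.trans (sup_le hT.1 (centralizerIn_le S T))
  have hTf : Finite T := finite_of_le hT.1
  have hTTC : TC F T T := TC.of_centric hT c.hE (isCentric_top E)
  obtain ⟨k, hk, k1, k2⟩ := lam_all c.hS c.hF c.hEs c.hE c.hExt hTTC hαE.1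
  have hkmod : ∀ x ∈ T ⊔ centralizerIn S T, x⁻¹ * k x ∈ T := mod_sup hT hk (fun x hx => by
    rw [k1 x hx]; exact T.mul_mem (T.inv_mem hx) (hαE.mem hx)) k2
  have hkP : ∀ x ∈ P, k x ∈ P := fun x hx => by
    have h1 := P.mul_mem hx (hTP (hkmod x (hP hx)))
    rwa [mul_inv_cancel_left] at h1
  obtain ⟨β, hβ, hβk⟩ := exists_aut_of_fmap (hk.restrict hP) hkP
  have hβ1 : ∀ x ∈ P, autFun β x = k x := fun x hx => by rw [autFun_of_mem β hx, hβk]
  have hβm : β ∈ modT T P := fun x hx => by rw [hβ1 x hx]; exact hkmod x (hP hx)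
  obtain ⟨κ, hκ⟩ : ∃ κ, κ = β⁻¹ * α := ⟨_, rfl⟩
  have hκF : κ ∈ F.autGroup P := hκ ▸ Subgroup.mul_mem _ (Subgroup.inv_mem _ hβ) hα
  have hκT : ∀ x ∈ T, autFun κ x = x := by
    intro x hx
    rw [hκ, autFun_mul _ _ (hTP hx)]
    have h1 : autFun β x = autFun α x := by rw [hβ1 x (hTP hx), k1 x hx]
    rw [← h1, autFun_inv_apply _ (hTP hx)]
  obtain ⟨j, hj⟩ := order_of_trivial c hTP hP hκF hκT
  have hαβ : α = β * κ := by rw [hκ]; group
  have hκf := fmap_of_autGroup hPS hκF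
  have hαy : ∀ z ∈ P, autFun α z = autFun β (autFun κ z) := fun z hz => by rw [← autFun_mul _ _ hz, ← hαβ]
  -- congruence of the powers
  have hcong : ∀ (n : ℕ), ∀ x ∈ P, (autFun (κ ^ n) x)⁻¹ * autFun (α ^ n) x ∈ T := by
    intro n
    induction n with
    | zero =>
      intro x hx
      rw [pow_zero, pow_zero, autFun_one hx, inv_mul_cancel]; exact T.one_mem
    | succ n ih =>
      intro x hx
      have h1 := ih x hx
      have hy := autFun_mem (α ^ n) hx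
      have hz := autFun_mem (κ ^ n) hx
      rw [pow_succ', pow_succ', autFun_mul _ _ hx, autFun_mul _ _ hx, hαy _ hy]
      have h2 : autFun (α ^ n) x = autFun (κ ^ n) x * ((autFun (κ ^ n) x)⁻¹ * autFun (α ^ n) x) := by group
      have h3 : autFun κ (autFun (α ^ n) x) = autFun κ (autFun (κ ^ n) x) * ((autFun (κ ^ n) x)⁻¹ * autFun (α ^ n) x) := by
        conv_lhs => rw [h2]
        rw [hκf.map_mul hz (hTP h1), hκT _ h1]
      have h4 := hβm _ (autFun_mem κ hy)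
      have h5 : (autFun κ (autFun (κ ^ n) x))⁻¹ * autFun β (autFun κ (autFun (α ^ n) x)) =
          ((autFun (κ ^ n) x)⁻¹ * autFun (α ^ n) x) * ((autFun κ (autFun (α ^ n) x))⁻¹ * autFun β (autFun κ (autFun (α ^ n) x))) := by
        rw [h3]; group
      rw [h5]
      exact T.mul_mem h1 h4
  have h6 : α ^ p ^ j ∈ modT T P := by
    intro x hx
    have h7 := hcong (p ^ j) x hx
    rwa [← hj, pow_orderOf_eq_one, autFun_one hx, hj] at h7
  obtain ⟨m, hm⟩ := exists_pow_eq_self_of_coprime (n := p ^ j) (x := α) (Nat.Coprime.pow_right j ho).symm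
  rw [← hm]
  exact Subgroup.pow_mem _ h6 m

/-- The hyperfocal subgroup of a subsystem over `T C_S(T)` inducing only `Aut_E(T)` on `T` lies in `T`. -/
theorem hyp_le_of_aut [Finite S] [Fact p.Prime] (c : Cx E F p) {F₀ : FusionSystem U} (hU : U ≤ T ⊔ centralizerIn S T)
    (hTU : T ≤ U) (hF₀ : F₀.IsSaturated p) (hsub : F₀.IsSubsystemOf F) (haut : F₀.autGroup T ≤ E.autGroup T) :
    F₀.hyperfocalSubgroup p ≤ T := by
  have hT := c.hE.closed
  have hUS : U ≤ S := sub_le hsub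
  have hUf : Finite U := finite_of_le hUS
  have hUp := isPGroup_of_le c.hS hUS
  have hTF₀ : F₀.StronglyClosed T := (stronglyClosed_iff F₀).2 ⟨hTU, fun P f hP hf x hx =>
    StronglyClosed.map_mem F hT (sub_fmap hsub hf) hx (hP hx)⟩
  rw [hyperfocal_le_iff]
  intro P hP α hα ho x
  have hαf := fmap_of_autGroup hP hα
  obtain ⟨g, hg, hg1⟩ := exists_map_mod hUp hF₀ hTF₀ P (autFun α) hαf
  have hgT : ∀ t ∈ T, g t ∈ T := fun t ht => StronglyClosed.map_mem F₀ hTF₀ hg (Subgroup.mem_sup_right ht) ht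
  have hgP : ∀ y ∈ P ⊔ T, g y ∈ P ⊔ T := map_sup_mem hg (fun y hy => by
    have h1 := Subgroup.mul_mem (P ⊔ T) (Subgroup.mem_sup_left (autFun_mem α hy)) (Subgroup.mem_sup_right (hg1 y hy))
    rwa [mul_inv_cancel_left] at h1) (fun t ht => Subgroup.mem_sup_right (hgT t ht))
  obtain ⟨γ, hγ, hγg⟩ := exists_aut_of_fmap hg hgP
  have hγ1 : ∀ y ∈ P ⊔ T, autFun γ y = g y := fun y hy => by rw [autFun_of_mem γ hy, hγg]
  have hPTU : P ⊔ T ≤ U := sup_le hP hTU
  have hPTf : Finite ↥(P ⊔ T) := finite_of_le hPTU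
  have hgn : ∀ (n : ℕ), ∀ y ∈ P, (autFun (α ^ n) y)⁻¹ * autFun (γ ^ n) y ∈ T := by
    intro n
    induction n with
    | zero =>
      intro y hy
      rw [pow_zero, pow_zero, autFun_one hy, autFun_one (Subgroup.mem_sup_left hy : y ∈ P ⊔ T), inv_mul_cancel]
      exact T.one_mem
    | succ n ih =>
      intro y hy
      have hy' : y ∈ P ⊔ T := Subgroup.mem_sup_left hy
      have h1 := ih y hy
      have hz := autFun_mem (α ^ n) hy
      have hw := autFun_mem (γ ^ n) hy'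
      rw [pow_succ', pow_succ', autFun_mul _ _ hy, autFun_mul _ _ hy', hγ1 _ hw]
      have h2 : autFun (γ ^ n) y = autFun (α ^ n) y * ((autFun (α ^ n) y)⁻¹ * autFun (γ ^ n) y) := by group
      have h3 : g (autFun (γ ^ n) y) = g (autFun (α ^ n) y) * g ((autFun (α ^ n) y)⁻¹ * autFun (γ ^ n) y) := by
        conv_lhs => rw [h2]
        rw [hg.map_mul (Subgroup.mem_sup_left hz) (Subgroup.mem_sup_right h1)]
      rw [h3]
      have h4 := hg1 _ hz
      have h5 : (autFun α (autFun (α ^ n) y))⁻¹ * (g (autFun (α ^ n) y) * g ((autFun (α ^ n) y)⁻¹ * autFun (γ ^ n) y)) =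
          ((autFun α (autFun (α ^ n) y))⁻¹ * g (autFun (α ^ n) y)) * g ((autFun (α ^ n) y)⁻¹ * autFun (γ ^ n) y) := by group
      rw [h5]
      exact T.mul_mem h4 (hgT _ h1)
  -- `γ ^ n ∈ modT`
  have hn : γ ^ orderOf α ∈ modT T (P ⊔ T) := by
    have hγn := Subgroup.pow_mem _ hγ (orderOf α)
    have hf := fmap_of_autGroup hPTU hγn
    refine mod_sup hTF₀ hf (fun y hy => ?_) (fun t ht => ?_)
    · have h1 := hgn (orderOf α) y hy
      rwa [pow_orderOf_eq_one, autFun_one hy] at h1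
    · exact T.mul_mem (T.inv_mem ht) (StronglyClosed.map_mem F₀ hTF₀ hf (Subgroup.mem_sup_right ht) ht)
  obtain ⟨e, m, hm, hem⟩ := Nat.exists_eq_pow_mul_and_not_dvd (orderOf_pos γ).ne' p (Fact.out : p.Prime).ne_one
  have hpe : γ ^ p ^ e ∈ modT T (P ⊔ T) := by
    have hγe := Subgroup.pow_mem _ hγ (p ^ e)
    have hγF : γ ^ p ^ e ∈ F.autGroup (P ⊔ T) := sub_autGroup hsub hPTU hγe
    have hf := fmap_of_autGroup hPTU hγe
    have hi : FIso F₀ T T (autFun (γ ^ p ^ e)) := by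
      refine fiso_restrict (hf.restrict le_sup_right) le_rfl fun t ht => ?_
      exact StronglyClosed.map_mem F₀ hTF₀ hf (Subgroup.mem_sup_right ht) ht
    have hiE : FIso E T T (autFun (γ ^ p ^ e)) := by
      have h1 := haut hi.equiv_mem_autGroup
      have h2 := (fiso_autFun_iff le_rfl).2 h1
      exact h2.congr fun x hx => by rw [autFun_of_mem _ hx]; rfl
    refine mod_of_coprime c le_sup_right (hPTU.trans hU) hγF ?_ hiE
    have h1 : orderOf (γ ^ p ^ e) ∣ m := by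
      refine orderOf_dvd_of_pow_eq_one ?_
      rw [← pow_mul, ← hem, pow_orderOf_eq_one]
    exact Nat.Coprime.coprime_dvd_left h1 ((Nat.Prime.coprime_iff_not_dvd Fact.out).2 hm).symm
  have hγm : γ ∈ modT T (P ⊔ T) := by
    have hcop : Nat.gcd (orderOf α) (p ^ e) = 1 := Nat.Coprime.pow_right e ho
    have h1 := Nat.gcd_eq_gcd_ab (orderOf α) (p ^ e)
    rw [hcop] at h1
    have h2 : γ = (γ ^ orderOf α) ^ (Nat.gcdA (orderOf α) (p ^ e)) * (γ ^ p ^ e) ^ (Nat.gcdB (orderOf α) (p ^ e)) := by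
      rw [← zpow_natCast γ (orderOf α), ← zpow_natCast γ (p ^ e), ← zpow_mul, ← zpow_mul, ← zpow_add, ← h1]
      simp
    rw [h2]
    exact Subgroup.mul_mem _ (Subgroup.zpow_mem _ hn _) (Subgroup.zpow_mem _ hpe _)
  have hx' : (x : Ω) ∈ P ⊔ T := Subgroup.mem_sup_left x.2
  have h1 := hγm x hx'
  rw [hγ1 x hx'] at h1
  have h2 := hg1 x x.2
  rw [autFun_coe] at h2
  have h3 : (x : Ω)⁻¹ * (α x : P) = ((x : Ω)⁻¹ * g x) * (((α x : P) : Ω)⁻¹ * g x)⁻¹ := by group
  rw [h3]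
  exact T.mul_mem h1 (T.inv_mem h2)

end

end Cfsg.Agent.Lib.H34CenExt
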