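import Mathlib
import Cfsg.Agent.Lib.ThompsonJ
import Cfsg.Agent.Lib.SubgroupTools
import Cfsg.Agent.Lib.FocalTools
import Cfsg.Agent.Lib.WCE6
import Cfsg.Agent.Lib.Transfer

/-!
# Group theory for the centralizer of a normal subsystem (helper34)
-/

set_option autoImplicit false

universe u

namespace Cfsg.Agent.Lib.H34Cfp

open Cfsg Subgroup Cfsg.Agent.Lib.ThompsonJ Cfsg.Agent.Lib.SubgroupTools

section avg

theorem avg {L D : Type*} [Group L] [Finite L] [CommGroup D] [MulDistribMulAction L D] (T : Subgroup L) {N : ℕ}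
    (hN : ∀ d : D, d ^ N = 1) (hcop : Nat.Coprime T.index N) (Z : Subgroup D) (c : D)
    (hc : ∀ t ∈ T, t • c = c) (hcz : ∀ g : L, c⁻¹ * g • c ∈ Z) :
    ∃ z ∈ Z, ∀ g : L, g • (c * z) = c * z := by
  classical
  have hfin : Finite (L ⧸ T) := inferInstance
  have : Fintype (L ⧸ T) := Fintype.ofFinite _
  let f : L ⧸ T → D := fun q => q.out • c
  have hf : ∀ g : L, f (g : L ⧸ T) = g • c := by
    intro g
    obtain ⟨t, ht⟩ := QuotientGroup.mk_out_eq_mul T g
    show (Quotient.out (g : L ⧸ T)) • c = g • c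
    rw [ht, mul_smul, hc t t.2]
  let w : D := ∏ q, f q
  have hw : ∀ g : L, g • w = w := by
    intro g
    show g • (∏ q, f q) = ∏ q, f q
    rw [Finset.smul_prod']
    refine Fintype.prod_equiv (MulAction.toPerm g) _ _ ?_
    intro q
    obtain ⟨x, rfl⟩ := QuotientGroup.mk_surjective q
    rw [hf, MulAction.toPerm_apply, ← mul_smul]
    have : g • (x : L ⧸ T) = ((g * x : L) : L ⧸ T) := rfl
    rw [this, hf]
  have hm : Fintype.card (L ⧸ T) = T.index := by
    rw [Subgroup.index_eq_card, Nat.card_eq_fintype_card]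
  have hwc : (c ^ T.index)⁻¹ * w ∈ Z := by
    have h1 : (c ^ T.index)⁻¹ * w = ∏ q : L ⧸ T, (c⁻¹ * f q) := by
      rw [Finset.prod_mul_distrib, Finset.prod_const, Finset.card_univ, hm, inv_pow]
    rw [h1]
    refine Subgroup.prod_mem _ fun q _ => ?_
    obtain ⟨x, rfl⟩ := QuotientGroup.mk_surjective q
    rw [hf]; exact hcz x
  obtain ⟨k, hk⟩ : ∃ k : ℤ, ∀ d : D, (d ^ T.index) ^ k = d := by
    refine ⟨Nat.gcdA T.index N, fun d => ?_⟩
    have h9 := Nat.gcd_eq_gcd_ab T.index N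
    rw [hcop] at h9
    have h10 : d ^ ((T.index : ℤ) * Nat.gcdA T.index N + (N : ℤ) * Nat.gcdB T.index N) = d := by
      rw [← h9]; simp
    rw [zpow_add, zpow_mul, zpow_mul, zpow_natCast, zpow_natCast, hN, one_zpow, mul_one] at h10
    exact h10
  refine ⟨c⁻¹ * w ^ k, ?_, fun g => ?_⟩
  · have h2 : c⁻¹ * w ^ k = ((c ^ T.index)⁻¹ * w) ^ k := by
      rw [mul_zpow, inv_zpow, hk]
    rw [h2]; exact Z.zpow_mem hwc k
  · rw [mul_inv_cancel_left, smul_zpow', hw]

end avg

variable {G : Type u} [Group G] [Finite G]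

omit [Finite G] in
theorem le_normalizer_of_comm {T : Subgroup G} {c : G} (hc : ∀ t ∈ T, t * c = c * t) :
    zpowers c ≤ normalizer (T : Set G) := by
  rw [zpowers_le]
  refine Subgroup.mem_normalizer_iff.2 fun t => ?_
  constructor
  · intro ht
    rw [← hc t ht, mul_inv_cancel_right]; exact ht
  · intro ht
    have h := hc _ ht
    have h2 : c * t * c⁻¹ * c = c * t := by group
    rw [h2] at h
    have h3 : t = c * t * c⁻¹ := by
      have := mul_left_cancel h
      exact this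
    rw [h3]; exact ht

omit [Finite G] in
theorem comm_of_mem_sup {T : Subgroup G} {c : G} (hc : ∀ t ∈ T, t * c = c * t) {x : G} (hx : x ∈ T ⊔ zpowers c) :
    x * c = c * x := by
  have : T ⊔ zpowers c ≤ centralizer {c} := by
    refine sup_le (fun t ht => ?_) ?_
    · rw [Subgroup.mem_centralizer_iff]
      intro y hy
      rw [Set.mem_singleton_iff.1 hy, hc t ht]
    · rw [zpowers_le, Subgroup.mem_centralizer_iff]
      intro y hy
      rw [Set.mem_singleton_iff.1 hy]
  exact (Subgroup.mem_centralizer_iff.1 (this hx) c rfl).symm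

/-- the Thompson subgroup of `T ⟨c⟩` -/
theorem J_sup_zpowers {T : Subgroup G} {c : G} (hc : ∀ t ∈ T, t * c = c * t) :
    thompsonSubgroupAOf (T ⊔ zpowers c) = thompsonSubgroupAOf T ⊔ zpowers c := by
  rw [thompsonSubgroupAOf_eq, thompsonSubgroupAOf_eq]
  have hn := le_normalizer_of_comm hc
  have hcX : zpowers c ≤ T ⊔ zpowers c := le_sup_right
  have hcB : ∀ B ∈ maxIn (fun A : Subgroup G => IsMulCommutative A) (T ⊔ zpowers c), zpowers c ≤ B := by
    intro B hB
    rw [zpowers_le]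
    refine mem_of_centralizes_ab hB (hcX (mem_zpowers c)) ?_
    rw [Subgroup.mem_centralizer_iff]
    intro b hb
    exact comm_of_mem_sup hc (hB.1 hb)
  have hTc : ∀ A ∈ maxIn (fun A : Subgroup G => IsMulCommutative A) T, T ⊓ zpowers c ≤ A := by
    intro A hA x hx
    refine mem_of_centralizes_ab hA hx.1 ?_
    rw [Subgroup.mem_centralizer_iff]
    intro a ha
    obtain ⟨k, hk⟩ := mem_zpowers_iff.1 hx.2
    rw [← hk]
    exact (Commute.zpow_right (hc a (hA.1 ha)) k)
  have hBeq : ∀ B : Subgroup G, zpowers c ≤ B → B ≤ T ⊔ zpowers c → B = (B ⊓ T) ⊔ zpowers c := by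
    intro B h1 h2
    apply le_antisymm
    · intro x hx
      obtain ⟨t, ht, y, hy, rfl⟩ := (mem_sup_of_le_normalizer hn).1 (h2 hx)
      refine mul_mem_sup ⟨?_, ht⟩ hy
      have := B.mul_mem hx (B.inv_mem (h1 hy))
      rwa [mul_inv_cancel_right] at this
    · exact sup_le inf_le_left h1
  have hcardB : ∀ B : Subgroup G, zpowers c ≤ B → B ≤ T ⊔ zpowers c →
      Nat.card B * Nat.card (T ⊓ zpowers c : Subgroup G) = Nat.card (B ⊓ T : Subgroup G) * Nat.card (zpowers c) := by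
    intro B h1 h2
    have h3 : zpowers c ≤ normalizer ((B ⊓ T : Subgroup G) : Set G) :=
      le_normalizer_of_comm (fun t ht => hc t ht.2)
    have h4 := card_sup_mul_card_inf h3
    rw [← hBeq B h1 h2] at h4
    have h5 : B ⊓ T ⊓ zpowers c = T ⊓ zpowers c := by
      apply le_antisymm
      · exact inf_le_inf_right _ inf_le_right
      · exact fun x hx => ⟨⟨h1 hx.2, hx.1⟩, hx.2⟩
    rw [h5] at h4
    exact h4
  have hcardA : ∀ A : Subgroup G, T ⊓ zpowers c ≤ A → A ≤ T →
      Nat.card (A ⊔ zpowers c : Subgroup G) * Nat.card (T ⊓ zpowers c : Subgroup G) = Nat.card A * Nat.card (zpowers c) := by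
    intro A h1 h2
    have h3 : zpowers c ≤ normalizer (A : Set G) := le_normalizer_of_comm (fun t ht => hc t (h2 ht))
    have h4 := card_sup_mul_card_inf h3
    have h5 : A ⊓ zpowers c = T ⊓ zpowers c := by
      apply le_antisymm
      · exact inf_le_inf_right _ h2
      · exact fun x hx => ⟨h1 hx, hx.2⟩
    rwa [h5] at h4
  have hpos : 0 < Nat.card (T ⊓ zpowers c : Subgroup G) := Nat.card_pos
  have hpos' : 0 < Nat.card (zpowers c) := Nat.card_pos
  have hcommA : ∀ A : Subgroup G, IsMulCommutative A → A ≤ T → IsMulCommutative (A ⊔ zpowers c : Subgroup G) := by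
    intro A h1 h2
    refine comm_sup h1 inferInstance ?_
    intro a ha
    rw [Subgroup.mem_centralizer_iff]
    intro y hy
    obtain ⟨k, hk⟩ := mem_zpowers_iff.1 hy
    rw [← hk]
    exact (Commute.zpow_right (hc a (h2 ha)) k).symm
  -- the maximal subgroups correspond
  have k1 : ∀ A ∈ maxIn (fun A : Subgroup G => IsMulCommutative A) T,
      A ⊔ zpowers c ∈ maxIn (fun A : Subgroup G => IsMulCommutative A) (T ⊔ zpowers c) := by
    intro A hA
    refine ⟨sup_le_sup_right hA.1 _, hcommA A hA.2.1 hA.1, fun B hB hBc => ?_⟩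
    have hB' : IsMulCommutative (B ⊔ zpowers c : Subgroup G) := by
      refine comm_sup hBc inferInstance ?_
      intro b hb
      rw [Subgroup.mem_centralizer_iff]
      intro y hy
      obtain ⟨k, hk⟩ := mem_zpowers_iff.1 hy
      rw [← hk]
      exact (Commute.zpow_right (comm_of_mem_sup hc (hB hb)) k).symm
    have h1 : Nat.card B ≤ Nat.card (B ⊔ zpowers c : Subgroup G) :=
      Nat.card_le_card_of_injective _ (Subgroup.inclusion_injective le_sup_left)
    refine h1.trans ?_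
    have h2 := hcardB (B ⊔ zpowers c) le_sup_right (sup_le hB hcX)
    have h3 := hcardA A (hTc A hA) hA.1
    have h4 := hA.2.2 ((B ⊔ zpowers c) ⊓ T) inf_le_right (comm_mono hB' inf_le_left)
    have h5 : Nat.card (B ⊔ zpowers c : Subgroup G) * Nat.card (T ⊓ zpowers c : Subgroup G) ≤
        Nat.card (A ⊔ zpowers c : Subgroup G) * Nat.card (T ⊓ zpowers c : Subgroup G) := by
      rw [h2, h3]; exact Nat.mul_le_mul_right _ h4
    exact Nat.le_of_mul_le_mul_right h5 hpos
  have k2 : ∀ B ∈ maxIn (fun A : Subgroup G => IsMulCommutative A) (T ⊔ zpowers c),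
      B ⊓ T ∈ maxIn (fun A : Subgroup G => IsMulCommutative A) T := by
    intro B hB
    refine ⟨inf_le_right, comm_mono hB.2.1 inf_le_left, fun A hA hAc => ?_⟩
    have hA' : IsMulCommutative (A ⊔ (T ⊓ zpowers c) : Subgroup G) := comm_mono (hcommA A hAc hA) (sup_le_sup_left inf_le_right _)
    have h1 : Nat.card A ≤ Nat.card (A ⊔ (T ⊓ zpowers c) : Subgroup G) :=
      Nat.card_le_card_of_injective _ (Subgroup.inclusion_injective le_sup_left)
    refine h1.trans ?_
    have hAT : A ⊔ (T ⊓ zpowers c) ≤ T := sup_le hA inf_le_left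
    have h2 := hcardA (A ⊔ (T ⊓ zpowers c)) le_sup_right hAT
    have h3 := hcardB B (hcB B hB) hB.1
    have h4 := hB.2.2 (A ⊔ (T ⊓ zpowers c) ⊔ zpowers c) (sup_le (hAT.trans le_sup_left) hcX) (hcommA _ hA' hAT)
    have h5 : Nat.card (A ⊔ (T ⊓ zpowers c) : Subgroup G) * Nat.card (zpowers c) ≤
        Nat.card (B ⊓ T : Subgroup G) * Nat.card (zpowers c) := by
      rw [← h2, ← h3]; exact Nat.mul_le_mul_right _ h4
    exact Nat.le_of_mul_le_mul_right h5 hpos'
  apply le_antisymm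
  · refine sSup_le fun B hB => ?_
    rw [hBeq B (hcB B hB) hB.1]
    exact sup_le_sup_right (le_J (k2 B hB)) _
  · refine sup_le (sSup_le fun A hA => le_sup_left.trans (le_J (k1 A hA))) ?_
    obtain ⟨A, hA⟩ := maxAb_nonempty (T ⊔ zpowers c)
    exact (hcB A hA).trans (le_J hA)

variable {p : ℕ} [Fact p.Prime]

theorem le_of_pprime {K M R : Subgroup G} (hRK : R ≤ K) (_hKM : K ≤ M) (hR : ¬ p ∣ R.relIndex M)
    (hK : ∀ g ∈ M, ¬ p ∣ orderOf g → g ∈ K) : M ≤ K := by
  have h1 : K.relIndex M = 1 := by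
    by_contra hne
    obtain ⟨q, hq, hqd⟩ := Nat.exists_prime_and_dvd hne
    have hqp : q ≠ p := by
      rintro rfl
      exact hR (hqd.trans (Subgroup.relIndex_dvd_of_le_left M hRK))
    have : Fact q.Prime := ⟨hq⟩
    obtain ⟨Q⟩ : Nonempty (Sylow q M) := inferInstance
    have hQK : (Q : Subgroup M) ≤ K.subgroupOf M := by
      intro x hx
      refine hK x x.2 ?_
      intro hd
      obtain ⟨k, hk⟩ := Q.2 ⟨x, hx⟩
      have h2 : orderOf (x : G) ∣ q ^ k := by
        refine orderOf_dvd_of_pow_eq_one ?_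
        have h3 : x ^ q ^ k = 1 := congrArg Subtype.val hk
        exact congrArg Subtype.val h3
      have h4 := (Fact.out : p.Prime).dvd_of_dvd_pow (hd.trans h2)
      exact hqp ((Nat.prime_dvd_prime_iff_eq (Fact.out : p.Prime) hq).1 h4).symm
    have h5 := Subgroup.index_dvd_of_le hQK
    exact Q.not_dvd_index (hqd.trans h5)
  exact Subgroup.relIndex_eq_one.1 h1

theorem not_dvd_sup (S : Sylow p G) {B R : Subgroup G} [hBn : B.Normal] (hBR : B ⊓ (S : Subgroup G) ≤ R) :
    ¬ p ∣ R.relIndex (B ⊔ R) := by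
  have h1 : ¬ p ∣ (S : Subgroup G).relIndex B := Transfer.not_dvd_relIndex_of_normal S B
  have h2 : R.relIndex (B ⊔ R) = R.relIndex B := by
    have h3 := card_sup_mul_card_inf (N := B) (H := R) (by rw [Subgroup.normalizer_eq_top]; exact le_top)
    have h4 := card_mul_relIndex_of_le (H := R) (K := B ⊔ R) le_sup_right
    have h5 := card_mul_relIndex R B
    rw [← h4] at h3
    have hposR : 0 < Nat.card R := Nat.card_pos
    have hposI : 0 < Nat.card (B ⊓ R : Subgroup G) := Nat.card_pos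
    have h7 : Nat.card (R ⊓ B : Subgroup G) = Nat.card (B ⊓ R : Subgroup G) := by rw [inf_comm]
    rw [h7] at h5
    rw [← h5] at h3
    have h8 : (Nat.card R * Nat.card (B ⊓ R : Subgroup G)) * R.relIndex (B ⊔ R) =
        (Nat.card R * Nat.card (B ⊓ R : Subgroup G)) * R.relIndex B := by
      calc _ = Nat.card R * R.relIndex (B ⊔ R) * Nat.card (B ⊓ R : Subgroup G) := by ring
        _ = _ := by rw [h3]; ring
    exact Nat.eq_of_mul_eq_mul_left (Nat.mul_pos hposR hposI) h8
  rw [h2]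
  intro hd
  have h6 : R.relIndex B ∣ (S : Subgroup G).relIndex B := by
    rw [← Subgroup.inf_relIndex_right (S : Subgroup G) B]
    exact Subgroup.relIndex_dvd_of_le_left B (by rw [inf_comm]; exact hBR)
  exact h1 (hd.trans h6)

/-- the setting -/
structure Setup (S : Sylow p G) (B T V P : Subgroup G) : Prop where
  PT : P ≤ T
  TS : T ≤ S
  VS : V ≤ S
  Vn : V.Normal
  Pn : P.Normal
  Bn : B.Normal
  strong : ∀ t ∈ T, ∀ g, g * t * g⁻¹ ∈ (S : Subgroup G) → g * t * g⁻¹ ∈ T
  gen : B ≤ closure {g | g ∈ B ∧ ¬ p ∣ orderOf g}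
  mod : ∀ b ∈ B, ∀ v ∈ V, v⁻¹ * (b * v * b⁻¹) ∈ P
  BS : ∀ s ∈ B, s ∈ (S : Subgroup G) → ∃ t ∈ T, ∃ v ∈ V, s = t * v

variable {S : Sylow p G} {B T V P : Subgroup G}

theorem Setup.inf_le (h : Setup S B T V P) : B ⊓ (S : Subgroup G) ≤ T := by
  have := h.Bn
  let Q : Sylow p B := Transfer.sylowOfNormal S B
  have hQ : ∀ x : B, x ∈ (Q : Subgroup B) ↔ (x : G) ∈ (S : Subgroup G) := fun x => Iff.rfl
  let D : Subgroup B := T.subgroupOf B
  have hDQ : D ≤ Q := fun x hx => h.TS hx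
  have hcT : ∀ s ∈ (S : Subgroup G), ∀ t ∈ T, s * t * s⁻¹ ∈ T := fun s hs t ht =>
    h.strong t ht s (Subgroup.mul_mem _ (Subgroup.mul_mem _ hs (h.TS ht)) (Subgroup.inv_mem _ hs))
  have hfoc : (Q : Subgroup B).focalSubgroup ≤ D := by
    refine FocalTools.focal_le _ _ ?_
    intro s hs t ht hst
    obtain ⟨g, hg⟩ := isConj_iff.1 hst
    show ((s⁻¹ * t : B) : G) ∈ T
    obtain ⟨x, hx, v, hv, hs1⟩ := h.BS s s.2 hs
    have hg' : (t : G) = g * s * (g : G)⁻¹ := by rw [← hg]; rfl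
    have h1 : (t : G) = (g * x * (g : G)⁻¹) * (g * v * (g : G)⁻¹) := by
      rw [hg', hs1]; group
    have hv' : (g : G) * v * (g : G)⁻¹ ∈ V := h.Vn.conj_mem v hv g
    have hx' : (g : G) * x * (g : G)⁻¹ ∈ T := by
      refine h.strong x hx g ?_
      have h2 : (g : G) * x * (g : G)⁻¹ = t * (g * v * (g : G)⁻¹)⁻¹ := by rw [h1]; group
      rw [h2]
      exact Subgroup.mul_mem _ ht (Subgroup.inv_mem _ (h.VS hv'))
    have h3 := h.mod g g.2 v hv
    have h4 : ((s⁻¹ * t : B) : G) = (v⁻¹ * (x⁻¹ * (g * x * (g : G)⁻¹)) * v) * (v⁻¹ * (g * v * (g : G)⁻¹)) := by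
      push_cast
      rw [hs1, h1]; group
    rw [h4]
    refine T.mul_mem ?_ (h.PT h3)
    have h5 := hcT v⁻¹ (Subgroup.inv_mem _ (h.VS hv)) _ (T.mul_mem (T.inv_mem hx) hx')
    rwa [inv_inv] at h5
  obtain ⟨K, hKn, -, hKQ, -, hKi⟩ := FocalTools.exists_normal_of_focal_le Q D hDQ hfoc
  have hKp : ∃ k, K.index = p ^ k := by
    have h1 : D.relIndex (Q : Subgroup B) ∣ Nat.card (Q : Subgroup B) := Subgroup.relIndex_dvd_card _ _
    obtain ⟨n, hn⟩ := IsPGroup.iff_card.1 Q.2
    rw [← hKi, hn] at h1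
    obtain ⟨k, -, hk⟩ := (Nat.dvd_prime_pow (Fact.out : p.Prime)).1 h1
    exact ⟨k, hk⟩
  have hall : ∀ x : B, x ∈ K := by
    obtain ⟨k, hk⟩ := hKp
    have hsub : closure {g : G | g ∈ B ∧ ¬ p ∣ orderOf g} ≤ K.map B.subtype := by
      rw [closure_le]
      rintro g ⟨hg, hgo⟩
      refine ⟨⟨g, hg⟩, ?_, rfl⟩
      have h2 : ((⟨g, hg⟩ : B) : B ⧸ K) = 1 := by
        have h3 : orderOf ((⟨g, hg⟩ : B) : B ⧸ K) ∣ p ^ k := by
          rw [← hk, Subgroup.index_eq_card]; exact orderOf_dvd_natCard _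
        have h4 : orderOf ((⟨g, hg⟩ : B) : B ⧸ K) ∣ orderOf g := by
          have h5 := orderOf_map_dvd (QuotientGroup.mk' K) (⟨g, hg⟩ : B)
          rwa [Subgroup.orderOf_mk] at h5
        have h6 : Nat.Coprime (p ^ k) (orderOf g) :=
          Nat.Coprime.pow_left k (((Fact.out : p.Prime).coprime_iff_not_dvd).2 hgo)
        have h7 := Nat.Coprime.eq_one_of_dvd (Nat.Coprime.coprime_dvd_left h3 h6) h4
        exact orderOf_eq_one_iff.1 h7
      exact (QuotientGroup.eq_one_iff _).1 h2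
    intro x
    obtain ⟨y, hy, hyx⟩ := hsub (h.gen x.2)
    have : y = x := Subtype.ext hyx
    rw [← this]; exact hy
  rintro x ⟨hxB, hxS⟩
  have h1 : (⟨x, hxB⟩ : B) ∈ K ⊓ (Q : Subgroup B) := ⟨hall _, hxS⟩
  rw [hKQ] at h1
  exact h1

/-- **Main group theoretic result.** -/
theorem Setup.main (h : Setup S B T V P) (hp : p ≠ 2) {c : G} (hcV : c ∈ V) (hcT : ∀ t ∈ T, t * c = c * t)
    (hN : ∀ g ∈ B, ¬ p ∣ orderOf g → g ∈ normalizer (thompsonSubgroupAOf T : Set G) → g * c = c * g) :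
    ∀ b ∈ B, b * c = c * b := by
  have := h.Bn
  set R := T ⊔ zpowers c with hR
  have hTR : T ≤ R := le_sup_left
  have hcR : c ∈ R := (le_sup_right : zpowers c ≤ R) (mem_zpowers c)
  have hRS : R ≤ S := sup_le h.TS (by rw [zpowers_le]; exact h.VS hcV)
  set H := B ⊔ R with hH
  have hBH : B ≤ H := le_sup_left
  have hRH : R ≤ H := le_sup_right
  have hRp : IsPGroup p R := S.2.to_le hRS
  have hidx : ¬ p ∣ R.relIndex H := not_dvd_sup S (h.inf_le.trans hTR)
  let S' : Sylow p H := IsPGroup.toSylow (P := R.subgroupOf H) hRp.comap_subtype hidx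
  have hS' : (S' : Subgroup H).map H.subtype = R := by
    show (R.subgroupOf H).map H.subtype = R
    rw [Subgroup.subgroupOf_map_subtype, inf_eq_left.2 hRH]
  -- the elements of order prime to `p` in `H` lie in `B`
  have hpp : ∀ g ∈ H, ¬ p ∣ orderOf g → g ∈ B := by
    intro g hg hgo
    obtain ⟨b, hb, r, hr, rfl⟩ := Subgroup.mem_sup_of_normal_left.1 hg
    obtain ⟨k, hk⟩ := hRp ⟨r, hr⟩
    have hk' : r ^ p ^ k = 1 := congrArg Subtype.val hk
    have h2 : ((b * r : G) : G ⧸ B) = 1 := by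
      have h3 : orderOf ((b * r : G) : G ⧸ B) ∣ p ^ k := by
        refine orderOf_dvd_of_pow_eq_one ?_
        have h4 : ((b * r : G) : G ⧸ B) = ((r : G) : G ⧸ B) := by
          rw [QuotientGroup.mk_mul, (QuotientGroup.eq_one_iff b).2 hb, one_mul]
        rw [h4, ← QuotientGroup.mk_pow, hk', QuotientGroup.mk_one]
      have h5 : orderOf ((b * r : G) : G ⧸ B) ∣ orderOf (b * r) := orderOf_map_dvd (QuotientGroup.mk' B) (b * r)
      have h6 : Nat.Coprime (p ^ k) (orderOf (b * r)) :=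
        Nat.Coprime.pow_left k (((Fact.out : p.Prime).coprime_iff_not_dvd).2 hgo)
      exact orderOf_eq_one_iff.1 (Nat.Coprime.eq_one_of_dvd (Nat.Coprime.coprime_dvd_left h3 h6) h5)
    exact (QuotientGroup.eq_one_iff _).1 h2
  have hJR : thompsonSubgroupAOf R = thompsonSubgroupAOf T ⊔ zpowers c := J_sup_zpowers hcT
  have hJS' : (thompsonSubgroupAOf (S' : Subgroup H)).map H.subtype = thompsonSubgroupAOf R := by
    rw [thompsonSubgroupAOf_eq, map_J_ab H.subtype_injective, hS', ← thompsonSubgroupAOf_eq]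
  have hJT : ∀ {x : G}, x ∈ T → x ∈ thompsonSubgroupAOf R → x ∈ thompsonSubgroupAOf T := by
    intro x hxT hx
    rw [hJR] at hx
    have hJTle : thompsonSubgroupAOf T ≤ T := Subgroup.map_subtype_le _
    have hn : zpowers c ≤ normalizer (thompsonSubgroupAOf T : Set G) :=
      le_normalizer_of_comm fun t ht => hcT t (hJTle ht)
    obtain ⟨j, hj, y, hy, rfl⟩ := (mem_sup_of_le_normalizer hn).1 hx
    refine Subgroup.mul_mem _ hj ?_
    have hyT : y ∈ T := by
      have := T.mul_mem (T.inv_mem (hJTle hj)) hxT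
      rwa [inv_mul_cancel_left] at this
    obtain ⟨A, hA⟩ := maxAb_nonempty T
    rw [thompsonSubgroupAOf_eq]
    refine le_J hA (mem_of_centralizes_ab hA hyT ?_)
    rw [Subgroup.mem_centralizer_iff]
    intro a ha
    obtain ⟨k, hk⟩ := mem_zpowers_iff.1 hy
    rw [← hk]
    exact (Commute.zpow_right (hcT a (hA.1 ha)) k)
  -- the normalizer of `J(R)` in `H`
  set M := H ⊓ normalizer (thompsonSubgroupAOf R : Set G) with hM
  have hRM : R ≤ M := by
    refine le_inf hRH ?_
    rw [thompsonSubgroupAOf_eq]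
    exact le_trans Subgroup.le_normalizer (normalizer_le_normalizer_J_ab R)
  have hMc : M ≤ centralizer {c} ⊓ M := by
    refine le_of_pprime (p := p) (R := R) (le_inf ?_ hRM) inf_le_right ?_ ?_
    · intro r hr
      rw [Subgroup.mem_centralizer_singleton_iff]
      exact comm_of_mem_sup hcT hr
    · intro hd
      exact hidx (hd.trans (Dvd.intro _ (Subgroup.relIndex_mul_relIndex R M H hRM inf_le_left)))
    · intro g hg hgo
      refine ⟨?_, hg⟩
      change g ∈ centralizer {c}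
      rw [Subgroup.mem_centralizer_singleton_iff]
      have hgB := hpp g hg.1 hgo
      refine hN g hgB hgo ?_
      have hkey : ∀ g ∈ normalizer (thompsonSubgroupAOf R : Set G), ∀ x ∈ thompsonSubgroupAOf T,
          g * x * g⁻¹ ∈ thompsonSubgroupAOf T := by
        intro g hg x hx
        have hxT : x ∈ T := Subgroup.map_subtype_le _ hx
        have hxR : x ∈ thompsonSubgroupAOf R := by rw [hJR]; exact Subgroup.mem_sup_left hx
        have h1 := (Subgroup.mem_normalizer_iff.1 hg x).1 hxR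
        refine hJT (h.strong x hxT g ?_) h1
        exact hRS (Subgroup.map_subtype_le _ h1)
      refine Subgroup.mem_normalizer_iff.2 fun x => ⟨hkey g hg.2 x, fun hx => ?_⟩
      have := hkey g⁻¹ (Subgroup.inv_mem _ hg.2) _ hx
      have e : g⁻¹ * (g * x * g⁻¹) * g⁻¹⁻¹ = x := by group
      rwa [e] at this
  intro b hb
  have hwc := WCE.weakly_closed S' (x := ⟨c, hRH hcR⟩) hcR ?_ (Or.inl hp) ⟨b, hBH hb⟩ ?_
  · have h1 : b * c * b⁻¹ = c := congrArg Subtype.val hwc
    calc b * c = (b * c * b⁻¹) * b := by group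
      _ = c * b := by rw [h1]
  · intro n hn
    apply Subtype.ext
    show (n : G) * c * (n : G)⁻¹ = c
    have hnM : (n : G) ∈ M := by
      refine ⟨n.2, ?_⟩
      rw [← hJS']
      have hkey : ∀ m ∈ normalizer (thompsonSubgroupAOf (S' : Subgroup H) : Set H),
          ∀ x ∈ (thompsonSubgroupAOf (S' : Subgroup H)).map H.subtype,
          (m : G) * x * (m : G)⁻¹ ∈ (thompsonSubgroupAOf (S' : Subgroup H)).map H.subtype := by
        rintro m hm _ ⟨y, hy, rfl⟩
        exact ⟨m * y * m⁻¹, (Subgroup.mem_normalizer_iff.1 hm y).1 hy, rfl⟩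
      refine Subgroup.mem_normalizer_iff.2 fun x => ⟨hkey n hn x, fun hx => ?_⟩
      have := hkey n⁻¹ (Subgroup.inv_mem _ hn) _ hx
      have e : ((n⁻¹ : H) : G) * ((n : G) * x * (n : G)⁻¹) * ((n⁻¹ : H) : G)⁻¹ = x := by
        push_cast; group
      rwa [e] at this
    have h2 := (Subgroup.mem_centralizer_singleton_iff.1 (hMc hnM).1)
    rw [h2, mul_inv_cancel_right]
  · show b * c * b⁻¹ ∈ R
    have h3 := h.mod b hb c hcV
    have h4 := R.mul_mem hcR (hTR (h.PT h3))
    rwa [mul_inv_cancel_left] at h4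

/-- averaging in an abelian subgroup -/
theorem avg_sub {D L T : Subgroup G} (hDc : ∀ x ∈ D, ∀ y ∈ D, x * y = y * x) (hDp : IsPGroup p D)
    (hD : ∀ g ∈ L, ∀ d ∈ D, g * d * g⁻¹ ∈ D) (hi : Nat.Coprime (T.relIndex L) p) {Z : Subgroup G} {c : G}
    (hc : c ∈ D) (hT : ∀ t ∈ T, t * c * t⁻¹ = c) (hcz : ∀ g ∈ L, c⁻¹ * (g * c * g⁻¹) ∈ Z) :
    ∃ z ∈ Z, z ∈ D ∧ ∀ g ∈ L, g * (c * z) * g⁻¹ = c * z := by
  let _ : CommGroup D := { (inferInstance : Group D) with mul_comm := fun x y => Subtype.ext (hDc x x.2 y y.2) }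
  let _ : MulDistribMulAction L D :=
    { smul := fun g d => ⟨g * d * (g : G)⁻¹, hD g g.2 d d.2⟩
      one_smul := fun d => Subtype.ext (by show (1 : G) * d * (1 : G)⁻¹ = d; group)
      mul_smul := fun g k d => Subtype.ext (by
        show ((g * k : L) : G) * d * ((g * k : L) : G)⁻¹ = g * (k * d * (k : G)⁻¹) * (g : G)⁻¹
        push_cast; group)
      smul_mul := fun g d e => Subtype.ext (by
        show (g : G) * (d * e) * (g : G)⁻¹ = (g * d * (g : G)⁻¹) * (g * e * (g : G)⁻¹)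
        group)
      smul_one := fun g => Subtype.ext (by show (g : G) * 1 * (g : G)⁻¹ = 1; group) }
  have hs : ∀ (g : L) (d : D), ((g • d : D) : G) = g * d * (g : G)⁻¹ := fun _ _ => rfl
  obtain ⟨N, hN⟩ : ∃ n, ∀ d : D, d ^ p ^ n = 1 := by
    obtain ⟨n, hn⟩ := IsPGroup.exists_card_eq hDp
    exact ⟨n, fun d => by rw [← hn]; exact pow_card_eq_one'⟩
  obtain ⟨z, hz, hz'⟩ := avg (L := L) (D := D) (T.subgroupOf L) (N := p ^ N) hN (Nat.Coprime.pow_right N hi)
    (Z.subgroupOf D) ⟨c, hc⟩ (fun t ht => Subtype.ext (hT t ht)) (fun g => hcz g g.2)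
  refine ⟨z, hz, z.2, fun g hg => ?_⟩
  exact congrArg Subtype.val (hz' ⟨g, hg⟩)

theorem Setup.exists_fix (h : Setup S B T V P) (hVP : ∀ v ∈ V, ∀ x ∈ P, v * x = x * v) {c : G} (hcV : c ∈ V)
    (hcT : ∀ t ∈ T, t * c = c * t) :
    ∃ z ∈ P, z ∈ V ∧ (∀ t ∈ T, t * z = z * t) ∧ ∀ b ∈ B, b * (c * z) = c * z * b := by
  have := h.Bn
  have hVn := h.Vn
  have hPn := h.Pn
  set D := zpowers c ⊔ (V ⊓ P) with hD
  have hcD : c ∈ D := Subgroup.mem_sup_left (mem_zpowers c)
  have hZD : V ⊓ P ≤ D := le_sup_right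
  have hDV : D ≤ V := sup_le (by rwa [zpowers_le]) inf_le_left
  have hcent : ∀ x ∈ D, ∀ z ∈ V ⊓ P, x * z = z * x := fun x hx z hz => hVP x (hDV hx) z hz.2
  have hDc : ∀ x ∈ D, ∀ y ∈ D, x * y = y * x := by
    have h1 : D ≤ centralizer (D : Set G) := by
      refine sup_le ?_ ?_
      · rw [zpowers_le, Subgroup.mem_centralizer_iff]
        have h2 : D ≤ centralizer {c} := by
          refine sup_le ?_ ?_
          · rw [zpowers_le, Subgroup.mem_centralizer_singleton_iff]
          · intro z hz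
            rw [Subgroup.mem_centralizer_singleton_iff]
            exact (hcent c hcD z hz).symm
        intro y hy
        exact (Subgroup.mem_centralizer_singleton_iff.1 (h2 hy))
      · intro z hz
        rw [Subgroup.mem_centralizer_iff]
        intro y hy
        exact hcent y hy z hz
    intro x hx y hy
    exact (Subgroup.mem_centralizer_iff.1 (h1 hx) y hy).symm
  have hDp : IsPGroup p D := S.2.to_le (hDV.trans h.VS)
  have hbc : ∀ b ∈ B ⊔ T, c⁻¹ * (b * c * b⁻¹) ∈ V ⊓ P := by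
    intro g hg
    obtain ⟨b, hb, t, ht, rfl⟩ := Subgroup.mem_sup_of_normal_left.1 hg
    have e : b * t * c * (b * t)⁻¹ = b * c * b⁻¹ := by
      have := hcT t ht
      calc b * t * c * (b * t)⁻¹ = b * (t * c) * t⁻¹ * b⁻¹ := by group
        _ = b * c * b⁻¹ := by rw [this]; group
    rw [e]
    exact ⟨V.mul_mem (V.inv_mem hcV) (hVn.conj_mem c hcV b), h.mod b hb c hcV⟩
  have hDn : ∀ g ∈ B ⊔ T, ∀ d ∈ D, g * d * g⁻¹ ∈ D := by
    intro g hg d hd
    have hle : D ≤ D.comap (MulAut.conj g).toMonoidHom := by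
      refine sup_le ?_ ?_
      · rw [zpowers_le]
        show g * c * g⁻¹ ∈ D
        have := D.mul_mem hcD (hZD (hbc g hg))
        rwa [mul_inv_cancel_left] at this
      · intro z hz
        show g * z * g⁻¹ ∈ D
        exact hZD ⟨hVn.conj_mem z hz.1 g, hPn.conj_mem z hz.2 g⟩
    exact hle hd
  have hidx : Nat.Coprime (T.relIndex (B ⊔ T)) p :=
    (((Fact.out : p.Prime).coprime_iff_not_dvd).2 (not_dvd_sup S h.inf_le)).symm
  obtain ⟨z, hz, -, hfix⟩ := avg_sub hDc hDp hDn hidx hcD (fun t ht => by rw [hcT t ht, mul_inv_cancel_right]) hbc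
  refine ⟨z, hz.2, hz.1, fun t ht => ?_, fun b hb => ?_⟩
  · have h1 := hfix t (Subgroup.mem_sup_right ht)
    have h2 : t * (c * z) * t⁻¹ = c * (t * z * t⁻¹) := by
      calc t * (c * z) * t⁻¹ = (t * c) * z * t⁻¹ := by group
        _ = c * (t * z * t⁻¹) := by rw [hcT t ht]; group
    rw [h2] at h1
    have h3 := mul_left_cancel h1
    calc t * z = (t * z * t⁻¹) * t := by group
      _ = z * t := by rw [h3]
  · have h1 := hfix b (Subgroup.mem_sup_left hb)
    calc b * (c * z) = (b * (c * z) * b⁻¹) * b := by group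
      _ = c * z * b := by rw [h1]

end Cfsg.Agent.Lib.H34Cfp
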