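import Mathlib
import Cfsg.Agent.Lib.H34Cfp
import Cfsg.Agent.Lib.H34CenExt2
import Cfsg.Agent.Lib.H34Local
import Cfsg.Agent.Lib.FusionZeta
import Cfsg.Agent.Lib.FusionJ

/-!
# The local groups of a normal subsystem (helper34)
-/

set_option autoImplicit false

universe u

namespace Cfsg.Agent.Lib.H34CfpFus

open Cfsg Cfsg.FusionSystem Cfsg.Agent.Lib.FusionBasic Cfsg.Agent.Lib.FusionSat Cfsg.Agent.Lib.FusionNormal
  Cfsg.Agent.Lib.FusionInvar Cfsg.Agent.Lib.FusionTools Cfsg.Agent.Lib.FusionPP Cfsg.Agent.Lib.FusionStrong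
  Cfsg.Agent.Lib.FusionSys Cfsg.Agent.Lib.FusionFrat Cfsg.Agent.Lib.FusionPrime Cfsg.Agent.Lib.FusionTC
  Cfsg.Agent.Lib.FusionClosed Cfsg.Agent.Lib.FusionStab Cfsg.Agent.Lib.FusionZeta
  Cfsg.Agent.Lib.FusionGroup Cfsg.Agent.Lib.FusionModel Cfsg.Agent.Lib.FusionRealized
  Cfsg.Agent.Lib.FusionNormSat Cfsg.Agent.Lib.H34Local

variable {Ω : Type u} [Group Ω] {S T : Subgroup Ω} {F : FusionSystem S} {E : FusionSystem T} {P Q R U M X Y Z : Subgroup Ω}
  {a b f g : Ω → Ω} {p : ℕ}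

theorem le_norm_sup (hP : P ≤ S) : P ⊔ centralizerIn S P ≤ normalizerIn S P :=
  sup_le (le_normalizerIn hP) (fun _ hx => ⟨hx.1, Subgroup.centralizer_le_normalizer _ hx.2⟩)

theorem norm_norm_sup (_hP : P ≤ S) : normalizerIn (normalizerIn S P) (P ⊔ centralizerIn S P) = normalizerIn S P := by
  refine le_antisymm (normalizerIn_le _ _) ?_
  intro s hs
  refine ⟨hs, ?_⟩
  have key : ∀ s ∈ normalizerIn S P, ∀ x ∈ P ⊔ centralizerIn S P, s * x * s⁻¹ ∈ P ⊔ centralizerIn S P := by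
    intro s hs x hx
    have hle : P ⊔ centralizerIn S P ≤ (P ⊔ centralizerIn S P).comap (MulAut.conj s).toMonoidHom := by
      refine sup_le (fun y hy => ?_) (fun y hy => ?_)
      · exact Subgroup.mem_sup_left ((Subgroup.mem_normalizer_iff.1 hs.2 y).1 hy)
      · refine Subgroup.mem_sup_right ⟨S.mul_mem (S.mul_mem hs.1 hy.1) (S.inv_mem hs.1), ?_⟩
        show s * y * s⁻¹ ∈ _
        refine mem_centralizer_iff'.2 fun z hz => ?_
        have h1 := (Subgroup.mem_normalizer_iff.1 (Subgroup.inv_mem _ hs.2) z).1 hz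
        have h2 := mem_centralizer_iff'.1 hy.2 _ h1
        calc s * y * s⁻¹ * z * (s * y * s⁻¹)⁻¹ = s * (y * (s⁻¹ * z * s⁻¹⁻¹) * y⁻¹) * s⁻¹ := by group
          _ = z := by rw [h2]; group
    exact hle hx
  refine Subgroup.mem_normalizer_iff.2 fun x => ⟨key s hs x, fun hx => ?_⟩
  have := key s⁻¹ (Subgroup.inv_mem _ hs) _ hx
  have e : s⁻¹ * (s * x * s⁻¹) * s⁻¹⁻¹ = x := by group
  rwa [e] at this

/-- The model of `N_{N_F(P)}(P C_S(P))`. -/
theorem exists_pmodel [Finite S] [Fact p.Prime] (hS : IsPGroup p S) (hF : F.IsSaturated p) (hP : F.IsFullyNormalized P) :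
    ∃ (G : Type u) (_ : Group G) (_ : Finite G) (ι : ↥(normalizerIn S P) →* G) (L : FusionSystem (normalizerIn S P)),
      L.IsRealizedBy ι ∧ (∃ T : Sylow p G, (T : Subgroup G) = ι.range) ∧ (im ι (P ⊔ centralizerIn S P)).Normal ∧
      Subgroup.centralizer (im ι (P ⊔ centralizerIn S P) : Set G) ≤ im ι (P ⊔ centralizerIn S P) ∧
      L.IsSubsystemOf F ∧
      (∀ a, FIso F (P ⊔ centralizerIn S P) (P ⊔ centralizerIn S P) a → (∀ x ∈ P, a x ∈ P) →
        FMap L (P ⊔ centralizerIn S P) a) ∧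
      (∀ f, FMap L (P ⊔ centralizerIn S P) f → (∀ x ∈ P, f x ∈ P) ∧
        ∀ x ∈ centralizerIn S P, f x ∈ centralizerIn S P) := by
  have hPS := hP.1
  have hN : normalizerIn S P ≤ S := normalizerIn_le S P
  have hfin : Finite (normalizerIn S P) := finite_of_le hN
  have hNp : IsPGroup p (normalizerIn S P) := isPGroup_of_le hS hN
  have hQN := le_norm_sup (S := S) hPS
  have hsat := normSys_saturated hS hF hP
  have hQfn : (normSys F P hPS).IsFullyNormalized (P ⊔ centralizerIn S P) := by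
    refine fullyNormalized_of_normalizes hQN ?_
    have := norm_norm_sup (S := S) hPS
    intro x hx
    rw [← this] at hx
    exact hx.2
  have hmap : ∀ f, FMap (normSys F P hPS) (P ⊔ centralizerIn S P) f → (∀ x ∈ P, f x ∈ P) ∧
      ∀ x ∈ centralizerIn S P, f x ∈ centralizerIn S P := by
    intro f hf
    obtain ⟨hX, hfX, g, hg, hg1, hg2⟩ := fmap_normSys.1 hf
    have hPX : P ≤ P ⊔ centralizerIn S P := le_sup_left
    have hCX : centralizerIn S P ≤ P ⊔ centralizerIn S P := le_sup_right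
    refine ⟨fun x hx => by rw [← hg1 x (hPX hx)]; exact hg2.mem hx, fun x hx => ?_⟩
    rw [← hg1 x (hCX hx)]
    exact ⟨hg.map_mem (Subgroup.mem_sup_left (hCX hx)),
      hg2.map_centralizer hg le_sup_right (Subgroup.mem_sup_left (hCX hx)) hx.2⟩
  have hQc : (normSys F P hPS).IsCentric (P ⊔ centralizerIn S P) := by
    refine ⟨hQN, fun Q' hQ' => ?_⟩
    obtain ⟨f, hf⟩ := isConj_iff_fiso.1 hQ'
    obtain ⟨h1, h2⟩ := hmap f hf.1
    have hle : Q' ≤ P ⊔ centralizerIn S P := by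
      intro y hy
      obtain ⟨x, hx, rfl⟩ := hf.mem_iff.1 hy
      exact map_sup_mem hf.1 (fun x hx => Subgroup.mem_sup_left (h1 x hx)) (fun x hx => Subgroup.mem_sup_right (h2 x hx)) x hx
    have : Finite ↥(P ⊔ centralizerIn S P) := finite_of_le (hQN.trans hN)
    have heq : Q' = P ⊔ centralizerIn S P := Subgroup.eq_of_le_of_card_ge hle (hf.card_eq).le
    subst heq
    intro x hx
    exact Subgroup.mem_sup_right ⟨hN hx.1, Subgroup.centralizer_le (fun y hy => Subgroup.mem_sup_left hy) hx.2⟩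
  obtain ⟨G, i1, i2, ι, hm, hn, hc, -⟩ := exists_local hNp hsat hQfn hQc
  have hcond1 : ∀ a, FIso F (P ⊔ centralizerIn S P) (P ⊔ centralizerIn S P) a → (∀ x ∈ P, a x ∈ P) →
      FMap (normSys (normSys F P hPS) (P ⊔ centralizerIn S P) hQN) (P ⊔ centralizerIn S P) a := by
    intro a ha haP
    have haPi : FIso F P P a := fiso_restrict ha.1 le_sup_left haP
    have hself : P ⊔ centralizerIn S P ⊔ P = P ⊔ centralizerIn S P := sup_eq_left.2 le_sup_left
    have ha1 : FMap (normSys F P hPS) (P ⊔ centralizerIn S P) a := by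
      refine fmap_normSys.2 ⟨hQN, fun x hx => hQN (ha.mem hx), a, ?_, fun x _ => rfl, haPi⟩
      rw [hself]; exact ha.1
    have ha2 : FIso (normSys F P hPS) (P ⊔ centralizerIn S P) (P ⊔ centralizerIn S P) a := ⟨ha1, ha.2⟩
    refine fmap_normSys.2 ⟨le_normalizerIn hQN, fun x hx => le_normalizerIn hQN (ha.mem hx), a, ?_, fun x _ => rfl, ha2⟩
    rw [sup_idem]; exact ha1
  have hcond2 : ∀ f, FMap (normSys (normSys F P hPS) (P ⊔ centralizerIn S P) hQN) (P ⊔ centralizerIn S P) f →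
      (∀ x ∈ P, f x ∈ P) ∧ ∀ x ∈ centralizerIn S P, f x ∈ centralizerIn S P :=
    fun f hf => hmap f (sub_fmap normSys_sub hf)
  have hcond3 : (normSys (normSys F P hPS) (P ⊔ centralizerIn S P) hQN).IsSubsystemOf F :=
    sub_trans normSys_sub normSys_sub
  have key : ∀ (U : Subgroup Ω) (_ : U = normalizerIn S P) (ι : U →* G) (L : FusionSystem U), L.IsRealizedBy ι →
      (∃ T : Sylow p G, (T : Subgroup G) = ι.range) → (im ι (P ⊔ centralizerIn S P)).Normal →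
      Subgroup.centralizer (im ι (P ⊔ centralizerIn S P) : Set G) ≤ im ι (P ⊔ centralizerIn S P) →
      L.IsSubsystemOf F →
      (∀ a, FIso F (P ⊔ centralizerIn S P) (P ⊔ centralizerIn S P) a → (∀ x ∈ P, a x ∈ P) →
        FMap L (P ⊔ centralizerIn S P) a) →
      (∀ f, FMap L (P ⊔ centralizerIn S P) f → (∀ x ∈ P, f x ∈ P) ∧
        ∀ x ∈ centralizerIn S P, f x ∈ centralizerIn S P) →
      ∃ (G : Type u) (_ : Group G) (_ : Finite G) (ι : ↥(normalizerIn S P) →* G) (L : FusionSystem (normalizerIn S P)),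
      L.IsRealizedBy ι ∧ (∃ T : Sylow p G, (T : Subgroup G) = ι.range) ∧ (im ι (P ⊔ centralizerIn S P)).Normal ∧
      Subgroup.centralizer (im ι (P ⊔ centralizerIn S P) : Set G) ≤ im ι (P ⊔ centralizerIn S P) ∧
      L.IsSubsystemOf F ∧
      (∀ a, FIso F (P ⊔ centralizerIn S P) (P ⊔ centralizerIn S P) a → (∀ x ∈ P, a x ∈ P) →
        FMap L (P ⊔ centralizerIn S P) a) ∧
      (∀ f, FMap L (P ⊔ centralizerIn S P) f → (∀ x ∈ P, f x ∈ P) ∧
        ∀ x ∈ centralizerIn S P, f x ∈ centralizerIn S P) := by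
    rintro U rfl ι L h1 h2 h3 h4 h5 h6 h7
    exact ⟨G, i1, i2, ι, L, h1, h2, h3, h4, h5, h6, h7⟩
  exact key _ (norm_norm_sup hPS) ι _ hm.2.1 hm.2.2.1 hn hc hcond3 hcond1 hcond2

/-- good automorphisms -/
structure Good (F : FusionSystem S) (E : FusionSystem T) (p : ℕ) (P : Subgroup Ω) (a : Ω → Ω) : Prop where
  fmap : FMap E P a
  pp : PP F p (P ⊔ centralizerIn S P) a
  maps : ∀ x ∈ P, a x ∈ P
  mod : ∀ c ∈ centralizerIn S P, c⁻¹ * a c ∈ P

theorem exists_tv [Finite S] [Fact p.Prime] (hS : IsPGroup p S) (hT : T ≤ S) (hPT : P ≤ T)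
    (hPa : E.IsFullyAutomized p P) {s : Ω} (hs : s ∈ normalizerIn S P) (hsE : FMap E P (fun x => s * x * s⁻¹)) :
    ∃ t ∈ normalizerIn T P, t⁻¹ * s ∈ centralizerIn S P := by
  have hTf : Finite T := finite_of_le hT
  have hPf : Finite P := finite_of_le (hPT.trans hT)
  have hTp := isPGroup_of_le hS hT
  set K : Subgroup (MulAut P) := autInducedBy S P ⊓ E.autGroup P with hK
  have hKp : IsPGroup p K := (isPGroup_autInducedBy hS le_rfl).to_le inf_le_left
  obtain ⟨χ, hχ, h1⟩ := exists_conj_le_autInducedBy hPa K inf_le_right hKp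
  have hle : autInducedBy T P ≤ K := by
    refine le_inf ?_ (autInducedBy_le_autGroup hPT le_rfl)
    intro α hα
    obtain ⟨g, hg, h2⟩ := mem_autInducedBy_iff.1 hα
    exact mem_autInducedBy_iff.2 ⟨g, hT hg, h2⟩
  have hcard : Nat.card K ≤ Nat.card (autInducedBy T P) := by
    have h3 : K.map (MulAut.conj χ).toMonoidHom ≤ autInducedBy T P := by
      rintro _ ⟨κ, hκ, rfl⟩
      exact h1 κ hκ
    have hf : Finite ↥(autInducedBy T P) := inferInstance
    calc Nat.card K = Nat.card (K.map (MulAut.conj χ).toMonoidHom) :=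
          (Subgroup.card_map_of_injective (MulAut.conj χ).injective).symm
      _ ≤ _ := Nat.card_le_card_of_injective _ (Subgroup.inclusion_injective h3)
  have heq : autInducedBy T P = K := Subgroup.eq_of_le_of_card_ge hle hcard
  have hsP : ∀ x ∈ P, s * x * s⁻¹ ∈ P := fun x hx => (Subgroup.mem_normalizer_iff.1 hs.2 x).1 hx
  obtain ⟨α, hα, hα1⟩ := exists_aut_of_fmap hsE hsP
  have hαK : α ∈ K := ⟨mem_autInducedBy_iff.2 ⟨s, hs.1, hα1⟩, hα⟩
  rw [← heq] at hαK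
  obtain ⟨t, ht, h4⟩ := mem_autInducedBy_iff.1 hαK
  refine ⟨t, ⟨ht, mem_normalizer_of_aut h4⟩, S.mul_mem (S.inv_mem (hT ht)) hs.1, mem_centralizer_iff'.2 fun x hx => ?_⟩
  have h5 : t * x * t⁻¹ = s * x * s⁻¹ := by
    have := h4 ⟨x, hx⟩
    rw [hα1 ⟨x, hx⟩] at this
    exact this.symm
  calc t⁻¹ * s * x * (t⁻¹ * s)⁻¹ = t⁻¹ * (s * x * s⁻¹) * t := by group
    _ = x := by rw [← h5]; group

theorem lift_iter {G : Type u} [Group G] {ι : ↥U →* G} (ha : FIso F Q Q a) {g : G}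
    (hg : ∀ x ∈ Q, lift ι (a x) = g * lift ι x * g⁻¹) : ∀ (k : ℕ), ∀ x ∈ Q, lift ι (a^[k] x) = g ^ k * lift ι x * (g ^ k)⁻¹ := by
  intro k
  induction k with
  | zero => intro x _; simp
  | succ k ih =>
    intro x hx
    rw [Function.iterate_succ_apply', hg _ (iter_mem ha hx k), ih x hx, pow_succ']
    group

/-- The group attached to a `T`-centric fully normalized subgroup. -/
theorem exists_grp [Finite S] [Fact p.Prime] (hS : IsPGroup p S) (hF : F.IsSaturated p) (hEs : E.IsSaturated p)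
    (hE : Inv E F) (hTC : TC F T P) (hP : F.IsFullyNormalized P) :
    ∃ (G : Type u) (_ : Group G) (_ : Finite G) (ι : ↥(normalizerIn S P) →* G) (L : FusionSystem (normalizerIn S P))
      (S₀ : Sylow p G) (B : Subgroup G), L.IsRealizedBy ι ∧ L.IsSubsystemOf F ∧ (S₀ : Subgroup G) = ι.range ∧
      H34Cfp.Setup S₀ B (im ι (normalizerIn T P)) (im ι (centralizerIn S P)) (im ι P) ∧
      (∀ a, Good F E p P a → ∃ g ∈ B, ∀ x ∈ P ⊔ centralizerIn S P, lift ι (a x) = g * lift ι x * g⁻¹) ∧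
      (∀ g ∈ B, ¬ p ∣ orderOf g → ∃ a, Good F E p P a ∧
        ∀ x ∈ P ⊔ centralizerIn S P, lift ι (a x) = g * lift ι x * g⁻¹) := by
  obtain ⟨G, i1, i2, ι, L, hL, ⟨S₀, hS₀⟩, hn, hc, hLF, hL1, hL2⟩ := exists_pmodel hS hF hP
  have hPS := hP.1
  have hT := hE.closed
  have hTS := hT.1
  have hTp := isPGroup_of_le hS hTS
  have hTf : Finite T := finite_of_le hTS
  have hNS : normalizerIn S P ≤ S := normalizerIn_le S P
  have hNf : Finite (normalizerIn S P) := finite_of_le hNS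
  have hQN := le_norm_sup (S := S) hPS
  have hQS := hQN.trans hNS
  have hPQ : P ≤ P ⊔ centralizerIn S P := le_sup_left
  have hCQ : centralizerIn S P ≤ P ⊔ centralizerIn S P := le_sup_right
  have hPN : P ≤ normalizerIn S P := hPQ.trans hQN
  have hCN : centralizerIn S P ≤ normalizerIn S P := hCQ.trans hQN
  have hTPN : normalizerIn T P ≤ normalizerIn S P := fun x hx => ⟨hTS hx.1, hx.2⟩
  have hPT : P ≤ T := hTC.1
  have hPTP : P ≤ normalizerIn T P := le_normalizerIn hPT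
  have hinj : Function.Injective ι := hL.1
  have hstr := FusionFrat.Inv.strong hE
  have hPEn := fullyNormalized_sub hS hF hT hE.sub hPT hP
  have hPEa := fullyAutomized_of_fullyNormalized hTp hEs hPEn
  have himle : ∀ {X : Subgroup Ω}, im ι X ≤ (S₀ : Subgroup G) := by
    rintro X _ ⟨x, -, rfl⟩
    rw [hS₀]; exact ⟨x, rfl⟩
  -- maps on `Q` induced by elements of `G`
  have hmapQ : ∀ g : G, ∃ a, FMap L (P ⊔ centralizerIn S P) a ∧ (∀ x ∈ P ⊔ centralizerIn S P, lift ι (a x) = g * lift ι x * g⁻¹) ∧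
      (∀ x ∈ P, a x ∈ P) ∧ ∀ x ∈ centralizerIn S P, a x ∈ centralizerIn S P := by
    intro g
    obtain ⟨a, ha, ha1⟩ := exists_fmap_of_conj hL hQN g (fun x hx => by
      have h7 : lift ι x ∈ im ι (P ⊔ centralizerIn S P) := (mem_im_iff' hQN).2 ⟨x, hx, rfl⟩
      obtain ⟨w, -, hw⟩ := hn.conj_mem _ h7 g
      exact ⟨w, hw⟩)
    obtain ⟨h1, h2⟩ := hL2 a ha
    exact ⟨a, ha, ha1, h1, h2⟩
  have hPn : (im ι P).Normal := ⟨fun y hy g => by
    obtain ⟨x, hx, rfl⟩ := (mem_im_iff' hPN).1 hy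
    obtain ⟨a, -, h2, h3, -⟩ := hmapQ g
    rw [← h2 x (hPQ hx)]
    exact (mem_im_iff' hPN).2 ⟨_, h3 x hx, rfl⟩⟩
  have hVn : (im ι (centralizerIn S P)).Normal := ⟨fun y hy g => by
    obtain ⟨x, hx, rfl⟩ := (mem_im_iff' hCN).1 hy
    obtain ⟨a, -, h2, -, h3⟩ := hmapQ g
    rw [← h2 x (hCQ hx)]
    exact (mem_im_iff' hCN).2 ⟨_, h3 x hx, rfl⟩⟩
  -- the condition on the action on `P`
  let EC : G → Prop := fun g => ∃ f, FIso E P P f ∧ ∀ x ∈ P, lift ι (f x) = g * lift ι x * g⁻¹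
  have EC1 : EC 1 := ⟨fun x => x, FIso.refl E hPT, fun x _ => by group⟩
  have ECmul : ∀ g k, EC g → EC k → EC (g * k) := by
    rintro g k ⟨f, hf, h1⟩ ⟨f', hf', h2⟩
    refine ⟨fun x => f (f' x), hf'.trans hf, fun x hx => ?_⟩
    show lift ι (f (f' x)) = _
    rw [h1 _ (hf'.mem hx), h2 x hx]; group
  have ECinv : ∀ g, EC g → EC g⁻¹ := by
    rintro g ⟨f, hf, h1⟩
    obtain ⟨f', hf', h2, h3⟩ := hf.symm
    refine ⟨f', hf', fun x hx => ?_⟩
    have h4 := h1 _ (hf'.mem hx)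
    rw [h3 x hx] at h4
    rw [h4]; group
  let M : Subgroup G :=
    { carrier := {g | EC g ∧ ∀ v ∈ im ι (centralizerIn S P), v⁻¹ * (g * v * g⁻¹) ∈ im ι P}
      one_mem' := ⟨EC1, fun v _ => by
        have : v⁻¹ * (1 * v * (1 : G)⁻¹) = 1 := by group
        rw [this]; exact Subgroup.one_mem _⟩
      mul_mem' := by
        rintro g k ⟨h1, h2⟩ ⟨h3, h4⟩
        refine ⟨ECmul _ _ h1 h3, fun v hv => ?_⟩
        have e : v⁻¹ * (g * k * v * (g * k)⁻¹) = (v⁻¹ * (g * v * g⁻¹)) * (g * (v⁻¹ * (k * v * k⁻¹)) * g⁻¹) := by group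
        rw [e]
        exact Subgroup.mul_mem _ (h2 v hv) (hPn.conj_mem _ (h4 v hv) g)
      inv_mem' := by
        rintro g ⟨h1, h2⟩
        refine ⟨ECinv _ h1, fun v hv => ?_⟩
        have h3 := h2 (g⁻¹ * v * g⁻¹⁻¹) (hVn.conj_mem v hv g⁻¹)
        have e2 : (g⁻¹ * v * g⁻¹⁻¹)⁻¹ * (g * (g⁻¹ * v * g⁻¹⁻¹) * g⁻¹) = (v⁻¹ * (g⁻¹ * v * g⁻¹⁻¹))⁻¹ := by group
        rw [e2] at h3
        exact inv_mem_iff.1 h3 }
  have hMn : ∀ g k : G, g ∈ M → k * g * k⁻¹ ∈ M := by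
    rintro g k ⟨⟨f, hf, h1⟩, h2⟩
    obtain ⟨a, ha, ha1, ha2, -⟩ := hmapQ k
    have haF : FMap F (P ⊔ centralizerIn S P) a := sub_fmap hLF ha
    have haP : FIso F P P a := fiso_restrict haF hPQ ha2
    obtain ⟨a', ha', e1, e2⟩ := haP.symm
    refine ⟨⟨fun y => a (f (a' y)), ?_, ?_⟩, ?_⟩
    · have h3 : FMap E P (fun y => a (f (a' y))) := hstr.transport hPT haP e1 hf
      exact ⟨h3, (((ha'.trans (sub_fiso hE.sub hf)).trans haP)).2⟩
    · intro x hx
      show lift ι (a (f (a' x))) = _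
      have hx' := ha'.mem hx
      have h4 := ha1 _ (hPQ hx')
      rw [e2 x hx] at h4
      rw [ha1 _ (hPQ (hf.mem hx')), h1 _ hx', h4]
      group
    · intro v hv
      have h3 := h2 (k⁻¹ * v * k⁻¹⁻¹) (hVn.conj_mem v hv k⁻¹)
      have e : v⁻¹ * (k * g * k⁻¹ * v * (k * g * k⁻¹)⁻¹) =
          k * ((k⁻¹ * v * k⁻¹⁻¹)⁻¹ * (g * (k⁻¹ * v * k⁻¹⁻¹) * g⁻¹)) * k⁻¹ := by group
      rw [e]
      exact hPn.conj_mem _ h3 k
  set B : Subgroup G := Subgroup.closure {g | g ∈ M ∧ ¬ p ∣ orderOf g} with hB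
  have hBM : B ≤ M := by
    rw [hB, Subgroup.closure_le]; exact fun g hg => hg.1
  have hBn : B.Normal := by
    refine ⟨fun g hg k => ?_⟩
    have hle : B ≤ B.comap (MulAut.conj k).toMonoidHom := by
      rw [hB, Subgroup.closure_le]
      rintro x ⟨hx1, hx2⟩
      refine Subgroup.subset_closure ⟨hMn x k hx1, ?_⟩
      have : orderOf ((MulAut.conj k) x) = orderOf x := orderOf_injective (MulAut.conj k).toMonoidHom (MulAut.conj k).injective x
      show ¬ p ∣ orderOf ((MulAut.conj k) x)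
      rw [this]; exact hx2
    exact hle hg
  refine ⟨G, i1, i2, ι, L, S₀, B, hL, hLF, hS₀, ⟨?_, himle, himle, hVn, hPn, hBn, ?_, ?_, fun b hb => (hBM hb).2, ?_⟩, ?_, ?_⟩
  · exact Subgroup.map_mono (fun x hx => hPTP hx)
  · -- strongly closed
    intro t ht g hgt
    obtain ⟨t, ht', rfl⟩ := (mem_im_iff' hTPN).1 ht
    have htN := hTPN ht'
    have hz : Subgroup.zpowers t ≤ normalizerIn S P := by rw [Subgroup.zpowers_le]; exact htN
    obtain ⟨f, hf, hf1⟩ := exists_fmap_of_conj hL hz g (fun x hx => by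
      obtain ⟨k, rfl⟩ := Subgroup.mem_zpowers_iff.1 hx
      have e : g * lift ι (t ^ k) * g⁻¹ = (g * lift ι t * g⁻¹) ^ k := by
        rw [conj_zpow, lift_of_mem (Subgroup.zpow_mem _ htN k), lift_of_mem htN, ← map_zpow]
        rfl
      rw [e]
      rw [hS₀] at hgt
      exact Subgroup.zpow_mem _ hgt k)
    have h2 := hf1 t (Subgroup.mem_zpowers t)
    rw [← h2]
    refine (mem_im_iff' hTPN).2 ⟨f t, ⟨StronglyClosed.map_mem F hT (sub_fmap hLF hf) (Subgroup.mem_zpowers t) ht'.1,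
      (hf.map_mem (Subgroup.mem_zpowers t)).2⟩, rfl⟩
  · -- generation
    rw [hB]
    refine Subgroup.closure_mono ?_
    rintro g ⟨h1, h2⟩
    exact ⟨Subgroup.subset_closure ⟨h1, h2⟩, h2⟩
  · -- the Sylow subgroup
    intro s hsB hsS
    rw [hS₀] at hsS
    obtain ⟨⟨s, hs⟩, rfl⟩ := hsS
    obtain ⟨⟨f, hf, h1⟩, -⟩ := hBM hsB
    have hls : lift ι s = ι ⟨s, hs⟩ := lift_of_mem hs
    have hfs : ∀ x ∈ P, f x = s * x * s⁻¹ := by
      intro x hx
      have hxN := hPN hx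
      refine lift_inj hinj (hPN (hf.mem hx)) (Subgroup.mul_mem _ (Subgroup.mul_mem _ hs hxN) (Subgroup.inv_mem _ hs)) ?_
      rw [h1 x hx, lift_conj hs hxN, hls]
    obtain ⟨t, ht, hts⟩ := exists_tv hS hTS hPT hPEa hs (hf.1.congr hfs)
    refine ⟨lift ι t, (mem_im_iff' hTPN).2 ⟨t, ht, rfl⟩, lift ι (t⁻¹ * s), (mem_im_iff' hCN).2 ⟨_, hts, rfl⟩, ?_⟩
    rw [← lift_mul (hTPN ht) (hCN hts), mul_inv_cancel_left, hls]
  · -- good automorphisms come from `B`
    intro a ha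
    have hai := ha.pp.1
    have haL := hL1 a hai ha.maps
    obtain ⟨-, -, g, hg⟩ := (fmap_realized_iff hL).1 haL
    obtain ⟨-, n, hpn, hfix⟩ := ha.pp
    have hgit := lift_iter (ι := ι) hai hg
    have hgn : g ^ n ∈ im ι (P ⊔ centralizerIn S P) := by
      apply hc
      rw [Subgroup.mem_centralizer_iff]
      intro y hy
      obtain ⟨x, hx, rfl⟩ := (mem_im_iff' hQN).1 hy
      have h1 := hgit n x hx
      rw [hfix x hx] at h1
      calc lift ι x * g ^ n = (g ^ n * lift ι x * (g ^ n)⁻¹) * g ^ n := by rw [← h1]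
        _ = g ^ n * lift ι x := by group
    obtain ⟨k, hk⟩ : ∃ k, (g ^ n) ^ p ^ k = 1 := by
      obtain ⟨k, hk⟩ := S₀.2 ⟨g ^ n, himle hgn⟩
      exact ⟨k, congrArg Subtype.val hk⟩
    have hcop : (p ^ k).Coprime n := Nat.Coprime.pow_left k ((Fact.out : p.Prime).coprime_iff_not_dvd.2 hpn)
    obtain ⟨m, hm0, hm1⟩ := Nat.chineseRemainder hcop 0 1
    have hm0' : p ^ k ∣ m := (Nat.modEq_zero_iff_dvd).1 hm0
    have hn0 : n ≠ 0 := fun h => hpn (h ▸ dvd_zero p)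
    have hord : (g ^ m) ^ n = 1 := by
      obtain ⟨c, rfl⟩ := hm0'
      calc (g ^ (p ^ k * c)) ^ n = ((g ^ n) ^ p ^ k) ^ c := by rw [← pow_mul, ← pow_mul, ← pow_mul]; ring_nf
        _ = 1 := by rw [hk, one_pow]
    have hpo : ¬ p ∣ orderOf (g ^ m) := fun hd => hpn (hd.trans (orderOf_dvd_of_pow_eq_one hord))
    have hact : ∀ x ∈ P ⊔ centralizerIn S P, lift ι (a x) = g ^ m * lift ι x * (g ^ m)⁻¹ := by
      intro x hx
      rw [← hgit m x hx]
      congr 1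
      -- a^[m] x = a x
      have h3 : ∀ j : ℕ, a^[n * j] x = x := fun j => iter_fix_mul (hfix x hx) j
      rcases Nat.lt_or_ge m 1 with h4 | h4
      · have hm00 : m = 0 := by omega
        have h5 : n = 1 := by
          rw [hm00] at hm1
          have := (Nat.modEq_iff_dvd' (by omega : 0 ≤ 1)).1 hm1
          simpa using this
        have h6 := hfix x hx
        rw [h5] at h6
        rw [hm00]
        exact h6
      · have h5 : n ∣ m - 1 := (Nat.modEq_iff_dvd' h4).1 hm1.symm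
        obtain ⟨q, hq⟩ := h5
        have h6 : m = n * q + 1 := by omega
        rw [h6, Function.iterate_succ_apply']
        rw [h3]
    refine ⟨g ^ m, Subgroup.subset_closure ⟨⟨⟨a, ⟨ha.fmap, (fiso_restrict ha.pp.map hPQ ha.maps).2⟩, fun x hx => hact x (hPQ hx)⟩, ?_⟩, hpo⟩, hact⟩
    intro v hv
    obtain ⟨v, hv', rfl⟩ := (mem_im_iff' hCN).1 hv
    rw [← hact v (hCQ hv'), ← lift_inv (hCN hv'), ← lift_mul (Subgroup.inv_mem _ (hCN hv')) (hQN (hai.mem (hCQ hv')))]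
    exact (mem_im_iff' hPN).2 ⟨_, ha.mod v hv', rfl⟩
  · -- elements of `B` give good automorphisms
    intro g hg hpo
    obtain ⟨a, haL, ha1, ha2, ha3⟩ := hmapQ g
    have haF : FMap F (P ⊔ centralizerIn S P) a := sub_fmap hLF haL
    have hai : FIso F (P ⊔ centralizerIn S P) (P ⊔ centralizerIn S P) a := haF.fiso_of_card hQS
      (map_sup_mem haF (fun x hx => hPQ (ha2 x hx)) (fun x hx => hCQ (ha3 x hx))) le_rfl
    obtain ⟨⟨f, hf, hf1⟩, hmod⟩ := hBM hg
    refine ⟨a, ⟨?_, ⟨hai, orderOf g, hpo, fun x hx => ?_⟩, ha2, fun c hc => ?_⟩, ha1⟩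
    · refine hf.1.congr fun x hx => lift_inj hinj (hPN (hf.mem hx)) (hPN (ha2 x hx)) ?_
      rw [hf1 x hx, ha1 x (hPQ hx)]
    · have h1 := lift_iter (ι := ι) hai ha1 (orderOf g) x hx
      rw [pow_orderOf_eq_one, one_mul, inv_one, mul_one] at h1
      exact lift_inj hinj (hQN (iter_mem hai hx _)) (hQN hx) h1
    · have h1 := hmod (lift ι c) ((mem_im_iff' hCN).2 ⟨c, hc, rfl⟩)
      rw [← ha1 c (hCQ hc), ← lift_inv (hCN hc), ← lift_mul (Subgroup.inv_mem _ (hCN hc)) (hQN (hai.mem (hCQ hc)))] at h1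
      exact (lift_mem_im_iff hinj hPN (Subgroup.mul_mem _ (Subgroup.inv_mem _ (hCN hc)) (hQN (hai.mem (hCQ hc))))).1 h1

end Cfsg.Agent.Lib.H34CfpFus
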