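import Mathlib
import Cfsg.Agent.Lib.H34CfpFus

/-!
# Glauberman's argument in the local groups of a normal subsystem (helper34)
-/

set_option autoImplicit false

universe u

namespace Cfsg.Agent.Lib.H34CfpFus

open Cfsg Cfsg.FusionSystem Cfsg.Agent.Lib.FusionBasic Cfsg.Agent.Lib.FusionSat Cfsg.Agent.Lib.FusionNormal
  Cfsg.Agent.Lib.FusionInvar Cfsg.Agent.Lib.FusionTools Cfsg.Agent.Lib.FusionPP Cfsg.Agent.Lib.FusionStrong
  Cfsg.Agent.Lib.FusionSys Cfsg.Agent.Lib.FusionFrat Cfsg.Agent.Lib.FusionPrime Cfsg.Agent.Lib.FusionTC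
  Cfsg.Agent.Lib.FusionClosed Cfsg.Agent.Lib.FusionStab Cfsg.Agent.Lib.FusionZeta
  Cfsg.Agent.Lib.FusionGroup Cfsg.Agent.Lib.FusionModel Cfsg.Agent.Lib.FusionRealized
  Cfsg.Agent.Lib.FusionNormSat Cfsg.Agent.Lib.H34Local

variable {Ω : Type u} [Group Ω] {S T : Subgroup Ω} {F : FusionSystem S} {E : FusionSystem T} {P Q R U M X Y Z : Subgroup Ω}
  {a b f g : Ω → Ω} {p : ℕ}

theorem J_im {G : Type u} [Group G] {ι : ↥U →* G} (hι : Function.Injective ι) (hX : X ≤ U) :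
    thompsonSubgroupAOf (im ι X) = im ι (thompsonSubgroupAOf X) := by
  show thompsonSubgroupAOf ((X.subgroupOf U).map ι) = ((thompsonSubgroupAOf X).subgroupOf U).map ι
  rw [ThompsonJ.thompsonSubgroupAOf_eq, ← ThompsonJ.map_J_ab hι]
  congr 1
  have h1 := ThompsonJ.map_J_ab (f := U.subtype) U.subtype_injective (X.subgroupOf U)
  rw [Subgroup.subgroupOf_map_subtype, inf_eq_left.2 hX] at h1
  rw [ThompsonJ.thompsonSubgroupAOf_eq X, ← h1]
  exact (Subgroup.comap_map_eq_self_of_injective U.subtype_injective _).symm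

theorem cent_le_of_le (h : P ≤ T) : centralizerIn S T ≤ centralizerIn S P :=
  inf_le_inf_left _ (Subgroup.centralizer_le h)

/-- Glauberman's theorem in the local group. -/
theorem glau [Finite S] [Fact p.Prime] (hp : p ≠ 2) (hS : IsPGroup p S) (hF : F.IsSaturated p) (hEs : E.IsSaturated p)
    (hE : Inv E F) (hTC : TC F T P) (hP : F.IsFullyNormalized P) {c : Ω} (hc : c ∈ centralizerIn S T)
    (ha : Good F E p P a) (hac : a c ≠ c) :
    ∃ a' b, Good F E p P a' ∧ a' c ≠ c ∧ PP F p (P ⊔ thompsonSubgroupAOf (normalizerIn T P)) b ∧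
      (∀ x ∈ P, b x = a' x) ∧
      ∀ x ∈ thompsonSubgroupAOf (normalizerIn T P), b x ∈ thompsonSubgroupAOf (normalizerIn T P) := by
  obtain ⟨G, i1, i2, ι, L, S₀, B, hL, hLF, hS₀, hset, hG1, hG2⟩ := exists_grp hS hF hEs hE hTC hP
  have hPS := hP.1
  have hT := hE.closed
  have hTS := hT.1
  have hNS : normalizerIn S P ≤ S := normalizerIn_le S P
  have hQN := le_norm_sup (S := S) hPS
  have hPQ : P ≤ P ⊔ centralizerIn S P := le_sup_left
  have hCQ : centralizerIn S P ≤ P ⊔ centralizerIn S P := le_sup_right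
  have hPN : P ≤ normalizerIn S P := hPQ.trans hQN
  have hCN : centralizerIn S P ≤ normalizerIn S P := hCQ.trans hQN
  have hTPN : normalizerIn T P ≤ normalizerIn S P := fun x hx => ⟨hTS hx.1, hx.2⟩
  have hinj : Function.Injective ι := hL.1
  have hcP : c ∈ centralizerIn S P := cent_le_of_le hTC.1 hc
  have hcN := hCN hcP
  have hcV : lift ι c ∈ im ι (centralizerIn S P) := (mem_im_iff' hCN).2 ⟨c, hcP, rfl⟩
  have hcT : ∀ t ∈ im ι (normalizerIn T P), t * lift ι c = lift ι c * t := by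
    intro t ht
    obtain ⟨t, ht', rfl⟩ := (mem_im_iff' hTPN).1 ht
    rw [← lift_mul (hTPN ht') hcN, ← lift_mul hcN (hTPN ht')]
    congr 1
    exact hc.2 t ht'.1
  by_cases hN : ∀ g ∈ B, ¬ p ∣ orderOf g → g ∈ Subgroup.normalizer (thompsonSubgroupAOf (im ι (normalizerIn T P)) : Set G) →
      g * lift ι c = lift ι c * g
  · have h1 := hset.main hp hcV hcT hN
    obtain ⟨g, hg, hga⟩ := hG1 a ha
    exfalso
    apply hac
    have h2 := hga c (hCQ hcP)
    rw [h1 g hg, mul_inv_cancel_right] at h2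
    exact lift_inj hinj (hQN (ha.pp.mem (hCQ hcP))) hcN h2
  · push Not at hN
    obtain ⟨g, hg, hpo, hgN, hgc⟩ := hN
    obtain ⟨a', ha', ha1⟩ := hG2 g hg hpo
    obtain ⟨J, hJ⟩ : ∃ J, J = thompsonSubgroupAOf (normalizerIn T P) := ⟨_, rfl⟩
    have hJT : J ≤ normalizerIn T P := by rw [hJ]; exact FusionJ.J_le _
    have hJN : J ≤ normalizerIn S P := hJT.trans hTPN
    rw [J_im hinj hTPN, ← hJ] at hgN
    rw [← hJ]
    have hX : P ⊔ J ≤ normalizerIn S P := sup_le hPN hJN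
    have hPm : ∀ x ∈ P, g * lift ι x * g⁻¹ ∈ im ι P := fun x hx => by
      rw [← ha1 x (hPQ hx)]
      exact (mem_im_iff' hPN).2 ⟨_, ha'.maps x hx, rfl⟩
    have hJm : ∀ x ∈ J, g * lift ι x * g⁻¹ ∈ im ι J := fun x hx =>
      (Subgroup.mem_normalizer_iff.1 hgN _).1 ((mem_im_iff' hJN).2 ⟨x, hx, rfl⟩)
    have hXm : ∀ x ∈ P ⊔ J, g * lift ι x * g⁻¹ ∈ im ι (P ⊔ J) := by
      let K : Subgroup Ω :=
        { carrier := {x | x ∈ normalizerIn S P ∧ g * lift ι x * g⁻¹ ∈ im ι (P ⊔ J)}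
          one_mem' := ⟨Subgroup.one_mem _, by
            rw [lift_one, mul_one, mul_inv_cancel]; exact Subgroup.one_mem _⟩
          mul_mem' := by
            rintro x y ⟨hx, hx'⟩ ⟨hy, hy'⟩
            refine ⟨Subgroup.mul_mem _ hx hy, ?_⟩
            rw [lift_mul hx hy]
            have e : g * (lift ι x * lift ι y) * g⁻¹ = (g * lift ι x * g⁻¹) * (g * lift ι y * g⁻¹) := by group
            rw [e]; exact Subgroup.mul_mem _ hx' hy'
          inv_mem' := by
            rintro x ⟨hx, hx'⟩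
            refine ⟨Subgroup.inv_mem _ hx, ?_⟩
            rw [lift_inv hx]
            have e : g * (lift ι x)⁻¹ * g⁻¹ = (g * lift ι x * g⁻¹)⁻¹ := by group
            rw [e]; exact Subgroup.inv_mem _ hx' }
      have hmono : ∀ {X Y : Subgroup Ω}, X ≤ Y → im ι X ≤ im ι Y := fun h => Subgroup.map_mono (fun x hx => h hx)
      have hK : P ⊔ J ≤ K := sup_le (fun x hx => ⟨hPN hx, hmono le_sup_left (hPm x hx)⟩)
        (fun x hx => ⟨hJN hx, hmono le_sup_right (hJm x hx)⟩)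
      exact fun x hx => (hK hx).2
    obtain ⟨b, hb, hb1⟩ := exists_fmap_of_conj hL hX g (fun x hx => by
      obtain ⟨w, -, hw⟩ := hXm x hx
      exact ⟨w, hw⟩)
    have hbm : ∀ x ∈ P ⊔ J, b x ∈ P ⊔ J := fun x hx => by
      have h2 := hXm x hx
      rw [← hb1 x hx] at h2
      exact (lift_mem_im_iff hinj hX (hb.map_mem hx)).1 h2
    have hbF : FMap F (P ⊔ J) b := sub_fmap hLF hb
    have hbi : FIso F (P ⊔ J) (P ⊔ J) b := hbF.fiso_of_card (hX.trans hNS) hbm le_rfl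
    refine ⟨a', b, ha', ?_, ⟨hbi, orderOf g, hpo, fun x hx => ?_⟩, fun x hx => ?_, fun x hx => ?_⟩
    · intro h2
      apply hgc
      have h3 := ha1 c (hCQ hcP)
      rw [h2] at h3
      calc g * lift ι c = (g * lift ι c * g⁻¹) * g := by group
        _ = lift ι c * g := by rw [← h3]
    · have h1 := lift_iter (ι := ι) hbi hb1 (orderOf g) x hx
      rw [pow_orderOf_eq_one, one_mul, inv_one, mul_one] at h1
      exact lift_inj hinj (hX (iter_mem hbi hx _)) (hX hx) h1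
    · refine lift_inj hinj (hb.map_mem (Subgroup.mem_sup_left hx)) (hPN (ha'.maps x hx)) ?_
      rw [hb1 x (Subgroup.mem_sup_left hx), ha1 x (hPQ hx)]
    · have h2 := hJm x hx
      rw [← hb1 x (Subgroup.mem_sup_right hx)] at h2
      exact (lift_mem_im_iff hinj hJN (hb.map_mem (Subgroup.mem_sup_right hx))).1 h2

/-- The averaging argument in the local group. -/
theorem avgF [Finite S] [Fact p.Prime] (hS : IsPGroup p S) (hF : F.IsSaturated p) (hEs : E.IsSaturated p)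
    (hE : Inv E F) (hTC : TC F T P) (hP : F.IsFullyNormalized P) {c : Ω} (hc : c ∈ centralizerIn S T) :
    ∃ z ∈ P, z ∈ centralizerIn S P ∧ (∀ t ∈ normalizerIn T P, t * z = z * t) ∧
      ∀ a, Good F E p P a → a (c * z) = c * z := by
  obtain ⟨G, i1, i2, ι, L, S₀, B, hL, hLF, hS₀, hset, hG1, hG2⟩ := exists_grp hS hF hEs hE hTC hP
  have hPS := hP.1
  have hT := hE.closed
  have hTS := hT.1
  have hNS : normalizerIn S P ≤ S := normalizerIn_le S P
  have hQN := le_norm_sup (S := S) hPS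
  have hPQ : P ≤ P ⊔ centralizerIn S P := le_sup_left
  have hCQ : centralizerIn S P ≤ P ⊔ centralizerIn S P := le_sup_right
  have hPN : P ≤ normalizerIn S P := hPQ.trans hQN
  have hCN : centralizerIn S P ≤ normalizerIn S P := hCQ.trans hQN
  have hTPN : normalizerIn T P ≤ normalizerIn S P := fun x hx => ⟨hTS hx.1, hx.2⟩
  have hinj : Function.Injective ι := hL.1
  have hcP : c ∈ centralizerIn S P := cent_le_of_le hTC.1 hc
  have hcN := hCN hcP
  have hcV : lift ι c ∈ im ι (centralizerIn S P) := (mem_im_iff' hCN).2 ⟨c, hcP, rfl⟩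
  have hcT : ∀ t ∈ im ι (normalizerIn T P), t * lift ι c = lift ι c * t := by
    intro t ht
    obtain ⟨t, ht', rfl⟩ := (mem_im_iff' hTPN).1 ht
    rw [← lift_mul (hTPN ht') hcN, ← lift_mul hcN (hTPN ht')]
    congr 1
    exact hc.2 t ht'.1
  have hVP : ∀ v ∈ im ι (centralizerIn S P), ∀ x ∈ im ι P, v * x = x * v := by
    intro v hv x hx
    obtain ⟨v, hv', rfl⟩ := (mem_im_iff' hCN).1 hv
    obtain ⟨x, hx', rfl⟩ := (mem_im_iff' hPN).1 hx
    rw [← lift_mul (hCN hv') (hPN hx'), ← lift_mul (hPN hx') (hCN hv')]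
    congr 1
    exact (hv'.2 x hx').symm
  obtain ⟨z, hzP, hzV, hzT, hzB⟩ := hset.exists_fix hVP hcV hcT
  obtain ⟨z, hzP', rfl⟩ := (mem_im_iff' hPN).1 hzP
  have hzN := hPN hzP'
  have hzC : z ∈ centralizerIn S P := (lift_mem_im_iff hinj hCN hzN).1 hzV
  refine ⟨z, hzP', hzC, fun t ht => ?_, fun a ha => ?_⟩
  · have h1 := hzT (lift ι t) ((mem_im_iff' hTPN).2 ⟨t, ht, rfl⟩)
    rw [← lift_mul (hTPN ht) hzN, ← lift_mul hzN (hTPN ht)] at h1
    exact lift_inj hinj (Subgroup.mul_mem _ (hTPN ht) hzN) (Subgroup.mul_mem _ hzN (hTPN ht)) h1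
  · obtain ⟨g, hg, hga⟩ := hG1 a ha
    have hczC : c * z ∈ centralizerIn S P := Subgroup.mul_mem _ hcP hzC
    have h2 := hga (c * z) (hCQ hczC)
    rw [lift_mul hcN hzN, hzB g hg, mul_inv_cancel_right, ← lift_mul hcN hzN] at h2
    exact lift_inj hinj (hQN (ha.pp.mem (hCQ hczC))) (hCN hczC) h2

end Cfsg.Agent.Lib.H34CfpFus
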