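import Mathlib
import Cfsg.Agent.Lib.H34CfpFus2

/-!
# Fixed points of good automorphisms (helper34)
-/

set_option autoImplicit false

universe u

namespace Cfsg.Agent.Lib.H34CfpFus

open Cfsg Cfsg.FusionSystem Cfsg.Agent.Lib.FusionBasic Cfsg.Agent.Lib.FusionSat Cfsg.Agent.Lib.FusionNormal
  Cfsg.Agent.Lib.FusionInvar Cfsg.Agent.Lib.FusionTools Cfsg.Agent.Lib.FusionPP Cfsg.Agent.Lib.FusionStrong
  Cfsg.Agent.Lib.FusionSys Cfsg.Agent.Lib.FusionFrat Cfsg.Agent.Lib.FusionPrime Cfsg.Agent.Lib.FusionTC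
  Cfsg.Agent.Lib.FusionClosed Cfsg.Agent.Lib.FusionStab Cfsg.Agent.Lib.FusionZeta

variable {Ω : Type u} [Group Ω] {S T : Subgroup Ω} {F : FusionSystem S} {E : FusionSystem T} {P Q R U M X Y Z : Subgroup Ω}
  {a b f g : Ω → Ω} {p : ℕ}

/-- A `p'`-automorphism of `R`, `P ≤ R ≤ N_T(P)`, extending an `E`-automorphism of `P` lies in `E`. -/
theorem pp_E [Finite S] [Fact p.Prime] (hS : IsPGroup p S) (hF : F.IsSaturated p) (hEs : E.IsSaturated p)
    (hE : Inv E F) (hTC : TC F T P) (hP : F.IsFullyNormalized P) (hPR : P ≤ R) (hR : R ≤ normalizerIn T P)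
    (hb : PP F p R b) (hbE : FMap E P b) (hbP : ∀ x ∈ P, b x ∈ P) : FMap E R b := by
  have hT := hE.closed
  have hTS := hT.1
  have hTp := isPGroup_of_le hS hTS
  have hTf : Finite T := finite_of_le hTS
  have hRT : R ≤ T := hR.trans (normalizerIn_le T P)
  have hRS : R ≤ S := hRT.trans hTS
  have hRf : Finite R := finite_of_le hRS
  have hPf : Finite P := finite_of_le (hPR.trans hRS)
  have hPEn := fullyNormalized_sub hS hF hT hE.sub hTC.1 hP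
  have hPEr := receptive_of_fullyNormalized hTp hEs hPEn
  have hbi : FIso E P P b := hbE.fiso_of_card hTC.1 hbP le_rfl
  obtain ⟨σ, hσ, hσP⟩ := extend_sup hPEr hbi (M := R) hR
    (fun t ht => ⟨b t, hRT (hb.mem ht), fun x hx => hb.map.map_conj ht (hPR hx)⟩)
  have hσR : FMap E R σ := hσ.restrict le_sup_right
  have hmod : ∀ r ∈ R, (b r)⁻¹ * σ r ∈ P := by
    intro r hr
    refine hTC.cent hT ⟨T.mul_mem (T.inv_mem (hRT (hb.mem hr))) (hσR.map_mem hr), mem_centralizer_iff'.2 fun y hy => ?_⟩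
    obtain ⟨x, hx, rfl⟩ := hbi.mem_iff.1 hy
    have h1 : r * x * r⁻¹ ∈ P := (Subgroup.mem_normalizer_iff.1 (hR hr).2 x).1 hx
    have h2 : σ r * b x * (σ r)⁻¹ = b r * b x * (b r)⁻¹ := by
      rw [← hσP x hx, ← hσR.map_conj hr (hPR hx), hσP _ h1, hσP x hx, hb.map.map_conj hr (hPR hx)]
    calc (b r)⁻¹ * σ r * b x * ((b r)⁻¹ * σ r)⁻¹ = (b r)⁻¹ * (σ r * b x * (σ r)⁻¹) * b r := by group
      _ = b x := by rw [h2]; group
  have hσm : ∀ r ∈ R, σ r ∈ R := fun r hr => by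
    have := R.mul_mem (hb.mem hr) (hPR (hmod r hr))
    rwa [mul_inv_cancel_left] at this
  obtain ⟨Ψ, hΨ, hΨ1⟩ := exists_aut_of_fmap hσR hσm
  have hβ := hb.aut_mem
  obtain ⟨β, hβe⟩ : ∃ β : MulAut R, β = (hb.1.equiv : MulAut R) := ⟨_, rfl⟩
  rw [← hβe] at hβ
  have hβ1 : ∀ x : R, (β x : Ω) = b x := fun x => by rw [hβe]; rfl
  have hNA := sub_autGroup hE.sub hRT
  have hnorm := (FusionFrat.Inv.strong hE).autGroup_normal hTS hRT
  obtain ⟨χ, hχe⟩ : ∃ χ, χ = Ψ⁻¹ * β := ⟨_, rfl⟩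
  have hχ : χ ∈ F.autGroup R := by rw [hχe]; exact Subgroup.mul_mem _ (Subgroup.inv_mem _ (hNA hΨ)) hβ
  have hΨχ : ∀ x : R, Ψ (χ x) = β x := by
    intro x
    rw [hχe, MulAut.mul_apply, MulAut.apply_inv_self]
  have hχP : ∀ x ∈ P, autFun χ x = x := by
    intro x hx
    have h1 := hΨχ ⟨x, hPR hx⟩
    have h2 : Ψ ⟨x, hPR hx⟩ = β ⟨x, hPR hx⟩ := by
      apply Subtype.ext
      rw [hΨ1, hβ1]
      exact hσP x hx
    have h3 : χ ⟨x, hPR hx⟩ = ⟨x, hPR hx⟩ := Ψ.injective (h1.trans h2.symm)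
    rw [autFun_of_mem χ (hPR hx), h3]
  have hχmod : ∀ x ∈ R, x⁻¹ * autFun χ x ∈ P := by
    intro x hx
    have h1 := hΨχ ⟨x, hx⟩
    have h2 : b x = σ (autFun χ x) := by
      rw [autFun_of_mem χ hx, ← hΨ1, h1, hβ1]
    have h3 := hmod x hx
    have hχx : autFun χ x ∈ R := autFun_mem χ hx
    have h4 : (b x)⁻¹ * σ x = (σ (x⁻¹ * autFun χ x))⁻¹ := by
      rw [hσR.map_mul (R.inv_mem hx) hχx, hσR.map_inv hx, ← h2]; group
    rw [h4] at h3
    have h5 := inv_mem_iff.1 h3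
    -- σ maps P onto P
    obtain ⟨y, hy, hyx⟩ := hbi.mem_iff.1 h5
    have h6 : σ y = σ (x⁻¹ * autFun χ x) := by rw [hσP y hy]; exact hyx
    have h7 := hσR.inj (hPR hy) (R.mul_mem (R.inv_mem hx) hχx) h6
    rw [← h7]; exact hy
  have hχf := fmap_of_autGroup hRS hχ
  obtain ⟨k, hk⟩ := IsPGroup.iff_card.1 (isPGroup_of_le hS (hPR.trans hRS))
  have hχ1 : χ ^ p ^ k = 1 := by
    refine eq_one_of_autFun fun x hx => ?_
    rw [autFun_pow_apply' χ _ hx, H34PIndex.iter_of_fix (Q := P) hχf hPR hχP hχmod _ hx]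
    have h1 : (x⁻¹ * autFun χ x) ^ p ^ k = 1 := by
      rw [← hk]
      exact congrArg Subtype.val (pow_card_eq_one' (G := P) (x := ⟨_, hχmod x hx⟩))
    rw [h1, mul_one]
  have hβN : β ^ p ^ k ∈ E.autGroup R := by
    have h1 : β = χ * (χ⁻¹ * Ψ * χ) := by
      rw [hχe]; group
    have h2 := mul_pow_mod (y := χ) (z := χ⁻¹ * Ψ * χ) (Z := E.autGroup R) (by
      have := hnorm χ⁻¹ (Subgroup.inv_mem _ hχ) Ψ hΨ
      rwa [inv_inv] at this) (fun w hw => by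
      have := hnorm χ⁻¹ (Subgroup.inv_mem _ hχ) w hw
      rwa [inv_inv] at this) (p ^ k)
    rw [hχ1, inv_one, one_mul, ← h1] at h2
    exact h2
  have hcop : (p ^ k).Coprime (orderOf β) := by
    rw [hβe]
    exact (Nat.Coprime.pow_right k hb.order).symm
  obtain ⟨m, hm⟩ := exists_pow_eq_self_of_coprime hcop
  have hβE : β ∈ E.autGroup R := by rw [← hm]; exact Subgroup.pow_mem _ hβN m
  exact (fmap_of_autGroup hRT hβE).congr fun x hx => by rw [autFun_of_mem β hx, hβ1]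

theorem Good.iso [Finite S] (h : Good F E p P a) (hPT : P ≤ T) (hT : T ≤ S) : FIso E P P a :=
  have : Finite T := finite_of_le hT
  h.fmap.fiso_of_card hPT h.maps le_rfl

/-- every `E`-automorphism of order prime to `p` has a good extension -/
theorem exists_good [Finite S] [Fact p.Prime] (hS : IsPGroup p S) (hF : F.IsSaturated p) (hEs : E.IsSaturated p)
    (hE : Inv E F) (hx : Ext E F) (hTC : TC F T P) (hf : PP F p P f) (hfE : FMap E P f) :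
    ∃ a, Good F E p P a ∧ ∀ x ∈ P, a x = f x := by
  have hTf : Finite T := finite_of_le hE.closed.1
  have hfi : FIso E P P f := hfE.fiso_of_card hTC.1 (fun x hx => hf.mem hx) le_rfl
  obtain ⟨a, ha, h1, h2⟩ := exists_pp_ext hf (extZ_all hS hF hEs hE hx P f hTC hfi)
  exact ⟨a, ⟨hfE.congr fun x hx => (h1 x hx).symm, ha, fun x hx => by rw [h1 x hx]; exact hf.mem hx, h2⟩, h1⟩

/-- transport of `Fix` along a map -/
theorem fix_transport (hP : FIso F P Q f) (hX : FMap F (P ⊔ Y) f) (hZ : ∀ z, z ∈ Z ↔ ∃ y ∈ Y, f y = z)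
    (haP : ∀ x ∈ P, a x ∈ P) (hgf : ∀ x ∈ P, g (f x) = x) (h : Fix F Y P a) : Fix F Z Q (fun y => f (a (g y))) := by
  obtain ⟨k, hk, h1, h2⟩ := h
  obtain ⟨M, hM⟩ := hX.exists_iso
  obtain ⟨f', hf', e1, e2⟩ := hM.symm
  have hQM : Q ≤ M := fun y hy => by
    obtain ⟨x, hx, rfl⟩ := hP.mem_iff.1 hy
    exact hM.mem (Subgroup.mem_sup_left hx)
  have hZM : Z ≤ M := fun z hz => by
    obtain ⟨y, hy, rfl⟩ := (hZ z).1 hz
    exact hM.mem (Subgroup.mem_sup_right hy)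
  have hQZ : Q ⊔ Z ≤ M := sup_le hQM hZM
  have hr := hf'.1.restrict hQZ
  have m1 : ∀ x ∈ Q ⊔ Z, f' x ∈ P ⊔ Y := fun x hx => hf'.mem (hQZ hx)
  have m2 : ∀ x ∈ P ⊔ Y, k x ∈ P ⊔ Y := map_sup_mem hk (fun x hx => Subgroup.mem_sup_left (by
    rw [h1 x hx]; exact haP x hx)) (fun y hy => Subgroup.mem_sup_right (by rw [h2 y hy]; exact hy))
  refine ⟨fun x => f (k (f' x)), (hr.comp hk m1).comp hX (fun x hx => m2 _ (m1 x hx)), fun x hx => ?_, fun z hz => ?_⟩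
  · obtain ⟨y, hy, rfl⟩ := hP.mem_iff.1 hx
    show f (k (f' (f y))) = f (a (g (f y)))
    rw [e1 y (Subgroup.mem_sup_left hy), hgf y hy, h1 y hy]
  · obtain ⟨y, hy, rfl⟩ := (hZ z).1 hz
    show f (k (f' (f y))) = f y
    rw [e1 y (Subgroup.mem_sup_right hy), h2 y hy]

theorem mem_cent_of_fmap (hP : FIso F P Q f) (hX : FMap F X f) (hPX : P ≤ X) {c : Ω} (hcX : c ∈ X)
    (hc : c ∈ centralizerIn S P) : f c ∈ centralizerIn S Q :=
  ⟨hX.map_mem hcX, hP.map_centralizer hX hPX hcX hc.2⟩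

/-- If `a|_R` extends to a map fixing `c` then `a` fixes `c`. -/
theorem comp_fix [Finite S] [Fact p.Prime] (hS : IsPGroup p S) (hF : F.IsSaturated p) (hEs : E.IsSaturated p)
    (hE : Inv E F) (hx : Ext E F) (hTC : TC F T P) (hP : F.IsFullyNormalized P) (ha : Good F E p P a) (hRP : R ≤ P)
    (hRTC : TC F T R) (haR : ∀ x ∈ R, a x ∈ R)
    (hZ : P ⊓ centralizerIn S P ≤ R) {c : Ω} (hc : c ∈ centralizerIn S T) (hfix : Fix F (Subgroup.zpowers c) R a) :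
    a c = c := by
  have hT := hE.closed
  have hTS := hT.1
  have hTf : Finite T := finite_of_le hTS
  have hPS := hP.1
  have hRS := hRP.trans hPS
  have hPQ : P ≤ P ⊔ centralizerIn S P := le_sup_left
  have hCQ : centralizerIn S P ≤ P ⊔ centralizerIn S P := le_sup_right
  have hcP : c ∈ centralizerIn S P := cent_le_of_le hTC.1 hc
  have hcR : c ∈ centralizerIn S R := cent_le_of_le hRTC.1 hc
  obtain ⟨R', ρ, hR', hρ, hρN, hρN'⟩ := exists_fullyNormalized_map hS hF hRS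
  have hRTC' : TC F T R' := hRTC.conj hT hρ.isConj
  obtain ⟨ρ', hρ', e1, e2⟩ := hρ.symm
  have haRp : PP F p R a := ha.pp.restrict (hRP.trans hPQ) haR
  have haRE : FMap E R a := ha.fmap.restrict hRP
  have haRi : FIso E R R a := haRE.fiso_of_card hRTC.1 haR le_rfl
  have hα' : PP F p R' (fun y => ρ (a (ρ' y))) := haRp.transport hρ hρ' e1 e2
  have hα'E : FMap E R' (fun y => ρ (a (ρ' y))) := (FusionFrat.Inv.strong hE).transport hRTC.1 hρ e1 haRi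
  obtain ⟨â, hâ, hâ1⟩ := exists_good hS hF hEs hE hx hRTC' hα' hα'E
  have hR'f := fullyCentralized_of_fullyNormalized hS hF hR'
  have hRN : R ≤ normalizerIn S R := le_normalizerIn hRS
  have hCRN : centralizerIn S R ≤ normalizerIn S R := fun x hx => ⟨hx.1, Subgroup.centralizer_le_normalizer _ hx.2⟩
  have hcN : c ∈ normalizerIn S R := hCRN hcR
  have hzc : Subgroup.zpowers c ≤ normalizerIn S R := by rw [Subgroup.zpowers_le]; exact hcN
  have hρX : FMap F (R ⊔ Subgroup.zpowers c) ρ := hρN.restrict (sup_le hRN hzc)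
  have hρc : ρ c ∈ centralizerIn S R' := mem_cent_of_fmap hρ hρN hRN hcN hcR
  have hzpow : ∀ z, z ∈ Subgroup.zpowers (ρ c) ↔ ∃ y ∈ Subgroup.zpowers c, ρ y = z := by
    intro z
    constructor
    · intro hz
      obtain ⟨k, rfl⟩ := Subgroup.mem_zpowers_iff.1 hz
      exact ⟨c ^ k, Subgroup.zpow_mem _ (Subgroup.mem_zpowers c) k, hρN.map_zpow hcN k⟩
    · rintro ⟨y, hy, rfl⟩
      obtain ⟨k, rfl⟩ := Subgroup.mem_zpowers_iff.1 hy
      rw [hρN.map_zpow hcN]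
      exact Subgroup.zpow_mem _ (Subgroup.mem_zpowers _) k
  have hfix' : Fix F (Subgroup.zpowers (ρ c)) R' â :=
    fix_congr (fix_transport hρ hρX hzpow haR e1 hfix) (fun x hx => (hâ1 x hx).symm)
  have hâc : â (ρ c) = ρ c := fixed_of_fix hS hF hR'f hâ.pp hâ.maps hâ.mod
    (by rw [Subgroup.zpowers_le]; exact hρc) hfix' _ (Subgroup.mem_zpowers _)
  -- the element `z`
  have hzP : c⁻¹ * a c ∈ P := ha.mod c hcP
  have hac : a c ∈ centralizerIn S P :=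
    mem_cent_of_fmap (fiso_restrict ha.pp.map hPQ ha.maps) ha.pp.map hPQ (hCQ hcP) hcP
  have hzR : c⁻¹ * a c ∈ R := hZ ⟨hzP, Subgroup.mul_mem _ (Subgroup.inv_mem _ hcP) hac⟩
  obtain ⟨z, hz⟩ : ∃ z, z = c⁻¹ * a c := ⟨_, rfl⟩
  rw [← hz] at hzP hzR
  have hacz : a c = c * z := by rw [hz]; group
  -- the inverse of `â`
  obtain ⟨â', hâ', q1, q2⟩ := hâ.pp.1.symm
  have hR'Q : R' ≤ R' ⊔ centralizerIn S R' := le_sup_left
  have hC'Q : centralizerIn S R' ≤ R' ⊔ centralizerIn S R' := le_sup_right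
  have hâi : FIso F R' R' â := fiso_restrict hâ.pp.map hR'Q hâ.maps
  have hâ'm : ∀ x ∈ R', â' x ∈ R' := by
    intro x hx
    obtain ⟨y, hy, rfl⟩ := hâi.mem_iff.1 hx
    rw [q1 y (hR'Q hy)]; exact hy
  have hzle : Subgroup.zpowers (ρ c) ≤ centralizerIn S R' := by rw [Subgroup.zpowers_le]; exact hρc
  have hdom : Subgroup.zpowers (ρ c) ⊔ R' ≤ R' ⊔ centralizerIn S R' := sup_le (hzle.trans hC'Q) hR'Q
  have hâ'z : ∀ k : ℤ, â' ((ρ c) ^ k) = (ρ c) ^ k := by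
    intro k
    have h1 := q1 ((ρ c) ^ k) (hC'Q (Subgroup.zpow_mem _ hρc k))
    rwa [hâ.pp.map.map_zpow (hC'Q hρc), hâc] at h1
  have s1 : FMap F (Subgroup.zpowers (ρ c) ⊔ R') â' := hâ'.1.restrict hdom
  have s1m : ∀ x ∈ Subgroup.zpowers (ρ c) ⊔ R', â' x ∈ Subgroup.zpowers (ρ c) ⊔ R' := map_sup_mem s1
    (fun x hx => by
      obtain ⟨k, rfl⟩ := Subgroup.mem_zpowers_iff.1 hx
      rw [hâ'z]; exact Subgroup.mem_sup_left hx)
    (fun x hx => Subgroup.mem_sup_right (hâ'm x hx))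
  -- the inverse of `ρ` on `R ⟨c⟩`
  obtain ⟨M, hM⟩ := hρX.exists_iso
  obtain ⟨τ, hτ, t1, t2⟩ := hM.symm
  have hcM : Subgroup.zpowers (ρ c) ≤ M := by
    rw [Subgroup.zpowers_le]; exact hM.mem (Subgroup.mem_sup_right (Subgroup.mem_zpowers c))
  have hR'M : R' ≤ M := fun y hy => by
    obtain ⟨x, hx, rfl⟩ := hρ.mem_iff.1 hy
    exact hM.mem (Subgroup.mem_sup_left hx)
  have s2 : FMap F (Subgroup.zpowers (ρ c) ⊔ R') τ := hτ.1.restrict (sup_le hcM hR'M)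
  have s2m : ∀ x ∈ Subgroup.zpowers (ρ c) ⊔ R', τ x ∈ R ⊔ Subgroup.zpowers c := fun x hx =>
    hτ.mem ((sup_le hcM hR'M) hx)
  have hRcQ : R ⊔ Subgroup.zpowers c ≤ P ⊔ centralizerIn S P := sup_le (hRP.trans hPQ)
    (by rw [Subgroup.zpowers_le]; exact hCQ hcP)
  have s3 : FMap F (R ⊔ Subgroup.zpowers c) a := ha.pp.map.restrict hRcQ
  have hacR : a c ∈ normalizerIn S R := by
    rw [hacz]; exact Subgroup.mul_mem _ hcN (hRN hzR)
  have s3m : ∀ x ∈ R ⊔ Subgroup.zpowers c, a x ∈ normalizerIn S R := map_sup_mem s3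
    (fun x hx => hRN (haR x hx)) (fun x hx => by
      obtain ⟨k, rfl⟩ := Subgroup.mem_zpowers_iff.1 hx
      rw [ha.pp.map.map_zpow (hCQ hcP)]
      exact Subgroup.zpow_mem _ hacR k)
  have s4 : FMap F (Subgroup.zpowers (ρ c) ⊔ R') (fun x => ρ (a (τ (â' x)))) :=
    ((s1.comp s2 s1m).comp s3 (fun x hx => s2m _ (s1m x hx))).comp hρN (fun x hx => s3m _ (s2m _ (s1m x hx)))
  have hτρ : ∀ x ∈ R', τ x = ρ' x := by
    intro x hx
    obtain ⟨y, hy, rfl⟩ := hρ.mem_iff.1 hx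
    rw [t1 y (Subgroup.mem_sup_left hy), e1 y hy]
  have hκR : ∀ x ∈ R', ρ (a (τ (â' x))) = x := by
    intro x hx
    have h1 := hâ'm x hx
    rw [hτρ _ h1]
    have h2 := hâ1 _ h1
    rw [q2 x (hR'Q hx)] at h2
    exact h2.symm
  have hκc : ρ (a (τ (â' (ρ c)))) = ρ (a c) := by
    have h1 := hâ'z 1
    rw [zpow_one] at h1
    rw [h1, t1 c (Subgroup.mem_sup_right (Subgroup.mem_zpowers c))]
  have hρac : ρ (a c) ∈ centralizerIn S R' := by
    refine mem_cent_of_fmap hρ hρN hRN hacR ?_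
    exact ⟨hac.1, Subgroup.centralizer_le hRP hac.2⟩
  have hκm : FMap (centSys F R' hR'.1) (Subgroup.zpowers (ρ c)) (fun x => ρ (a (τ (â' x)))) := by
    refine fmap_centSys.2 ⟨hzle, fun x hx => ?_, _, s4, fun _ _ => rfl, hκR⟩
    obtain ⟨k, rfl⟩ := Subgroup.mem_zpowers_iff.1 hx
    have h1 := s4.map_zpow (Subgroup.mem_sup_left (Subgroup.mem_zpowers (ρ c))) k
    show ρ (a (τ (â' (ρ c ^ k)))) ∈ _
    have h2 : ρ (a (τ (â' (ρ c ^ k)))) = (ρ (a (τ (â' (ρ c))))) ^ k := h1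
    rw [h2, hκc]
    exact Subgroup.zpow_mem _ hρac k
  have hzeta := zeta_const hS hF hR'f hâ.pp hâ.maps hâ.mod _ _ hκm (ρ c) (Subgroup.mem_zpowers _)
  have hz1 : (ρ (a c))⁻¹ * â (ρ (a c)) = 1 := by
    have h1 : (ρ (a (τ (â' (ρ c)))))⁻¹ * â (ρ (a (τ (â' (ρ c))))) = (ρ c)⁻¹ * â (ρ c) := hzeta
    rw [hκc, hâc, inv_mul_cancel] at h1
    exact h1
  have hz2 : â (ρ (a c)) = ρ (a c) := (inv_mul_eq_one.1 hz1).symm
  have hρz : ρ z ∈ R' := hρ.mem hzR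
  have hz3 : â (ρ z) = ρ z := by
    have h1 : ρ (a c) = ρ c * ρ z := by rw [hacz, hρN.map_mul hcN (hRN hzR)]
    rw [h1, hâ.pp.map.map_mul (hC'Q hρc) (hR'Q hρz), hâc] at hz2
    exact mul_left_cancel hz2
  have hz4 : a z = z := by
    rw [hâ1 _ hρz, e1 z hzR] at hz3
    exact hρ.1.inj (haR z hzR) hzR hz3
  refine ha.pp.fix hS (Y := Subgroup.zpowers z) (by rw [Subgroup.zpowers_le]; exact hPQ hzP) (hCQ hcP)
    (by rw [← hz]; exact Subgroup.mem_zpowers z) ?_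
  intro y hy
  obtain ⟨k, rfl⟩ := Subgroup.mem_zpowers_iff.1 hy
  rw [ha.pp.map.map_zpow (hPQ hzP), hz4]

end Cfsg.Agent.Lib.H34CfpFus
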