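import Mathlib
import Cfsg.Agent.Lib.FusionCharP
import Cfsg.Agent.Lib.H34CfpFus3
import Cfsg.Agent.Lib.FusionConstr
import Cfsg.Agent.Lib.FusionGrp

/-!
# Normal subsystems of strictly `p`-constrained groups (helper85)
-/

set_option autoImplicit false
set_option linter.unusedSectionVars false

namespace Cfsg.Agent.Lib.FusionStrictN

open Cfsg Cfsg.FusionSystem Cfsg.Agent.Lib.FusionBasic Cfsg.Agent.Lib.FusionSat Cfsg.Agent.Lib.FusionNormal
  Cfsg.Agent.Lib.FusionInvar Cfsg.Agent.Lib.FusionTools Cfsg.Agent.Lib.FusionPP Cfsg.Agent.Lib.FusionStrong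
  Cfsg.Agent.Lib.FusionSys Cfsg.Agent.Lib.FusionFrat Cfsg.Agent.Lib.FusionTC
  Cfsg.Agent.Lib.FusionGroup Cfsg.Agent.Lib.FusionGrp Cfsg.Agent.Lib.FusionConsComp Cfsg.Agent.Lib.FusionCharP
  Cfsg.Agent.Lib.FusionConstr Cfsg.Agent.Lib.FusionRealized
  Cfsg.Agent.Lib.H34CfpFus

section general

variable {Ω : Type*} [Group Ω] {T : Subgroup Ω} {E : FusionSystem T} {R K : Subgroup Ω} {p : ℕ}

/-- The elements of `T` inducing a normal subgroup of `Aut_E(R)` form a normal subgroup. -/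
theorem isNormal_of_inducing [Finite T] [Fact p.Prime] (hT : IsPGroup p T) (hE : E.IsSaturated p) (hR : E.IsNormal R)
    (hRc : E.IsCentric R) (hKT : K ≤ T) (hRK : R ≤ K)
    (h : ∀ θ, FIso E R R θ → ∀ k ∈ K, ∃ k' ∈ K, ∀ x ∈ R, θ (k * x * k⁻¹) = k' * θ x * k'⁻¹) : E.IsNormal K := by
  have hRs := isNormal_stronglyClosed hR
  have hRT := hRs.1
  have hn := normalizes_of_stronglyClosed hRs
  have hcR : centralizerIn T R ≤ R := hRc.2 R (isConj_refl E hRT)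
  have hKn : ∀ t ∈ T, ∀ k ∈ K, t * k * t⁻¹ ∈ K := by
    intro t ht k hk
    have hθ := fiso_conj_of_normalizer E hRT ht (hn ht)
    obtain ⟨k', hk', h1⟩ := h _ hθ k hk
    have h3 : k'⁻¹ * (t * k * t⁻¹) ∈ centralizerIn T R := by
      refine ⟨T.mul_mem (T.inv_mem (hKT hk')) (T.mul_mem (T.mul_mem ht (hKT hk)) (T.inv_mem ht)),
        mem_centralizer_iff'.2 fun y hy => ?_⟩
      have hy' : t⁻¹ * y * t ∈ R := by
        have := (Subgroup.mem_normalizer_iff.1 (hn (T.inv_mem ht)) y).1 hy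
        rwa [inv_inv] at this
      have h2 := h1 _ hy'
      have e1 : t * (k * (t⁻¹ * y * t) * k⁻¹) * t⁻¹ = (t * k * t⁻¹) * y * (t * k * t⁻¹)⁻¹ := by group
      have e2 : k' * (t * (t⁻¹ * y * t) * t⁻¹) * k'⁻¹ = k' * y * k'⁻¹ := by group
      rw [e1, e2] at h2
      calc k'⁻¹ * (t * k * t⁻¹) * y * (k'⁻¹ * (t * k * t⁻¹))⁻¹
          = k'⁻¹ * ((t * k * t⁻¹) * y * (t * k * t⁻¹)⁻¹) * k' := by group
        _ = y := by rw [h2]; group
    have := K.mul_mem hk' (hRK (hcR h3))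
    rwa [mul_inv_cancel_left] at this
  have hKnorm : T ≤ Subgroup.normalizer (K : Set Ω) := by
    intro t ht
    refine Subgroup.mem_normalizer_iff.2 fun x => ⟨hKn t ht x, fun hx => ?_⟩
    have := hKn t⁻¹ (T.inv_mem ht) _ hx
    have e : t⁻¹ * (t * x * t⁻¹) * t⁻¹⁻¹ = x := by group
    rwa [e] at this
  rw [isNormal_iff]
  refine ⟨hKT, fun P f hf => ?_⟩
  have hP := hf.le
  obtain ⟨-, hR'⟩ := (isNormal_iff E).1 hR
  obtain ⟨f₁, hf₁, h1, hθ⟩ := hR' P f hf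
  have hrec : E.IsReceptive R := receptive_of_centric hT hE hRc
  have hM : P ⊔ K ≤ normalizerIn T R := le_inf (sup_le hP hKT) ((sup_le hP hKT).trans hn)
  obtain ⟨σ, hσ, hσ1⟩ := extend_sup hrec hθ hM (by
    intro t ht
    obtain ⟨y, hy, k, hk, rfl⟩ := (mem_sup_of_normalizes (hP.trans hKnorm)).1 ht
    obtain ⟨k', hk', h2⟩ := h _ hθ k hk
    refine ⟨f₁ y * k', T.mul_mem (hf₁.map_mem (Subgroup.mem_sup_left hy)) (hKT hk'), fun x hx => ?_⟩
    have hkx : k * x * k⁻¹ ∈ R := (Subgroup.mem_normalizer_iff.1 (hn (hKT hk)) _).1 hx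
    have e : y * k * x * (y * k)⁻¹ = y * (k * x * k⁻¹) * y⁻¹ := by group
    rw [e, hf₁.map_conj (Subgroup.mem_sup_left hy) (Subgroup.mem_sup_right hkx), h2 x hx]
    group)
  have hσ2 : FMap E (P ⊔ R) σ := hσ.restrict (sup_le (le_sup_left.trans le_sup_right) le_sup_left)
  obtain ⟨z, hz, hzc, h3⟩ := agree_centric hT hE hRc le_sup_right hσ2 hf₁ hσ1
  have hzM : ∀ x ∈ P ⊔ K, z * x * z⁻¹ ∈ R ⊔ (P ⊔ K) := fun x hx =>
    Subgroup.mul_mem _ (Subgroup.mul_mem _ (Subgroup.mem_sup_left hz) (Subgroup.mem_sup_right hx))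
      (Subgroup.inv_mem _ (Subgroup.mem_sup_left hz))
  have hg : FMap E (P ⊔ K) (fun x => σ (z * x * z⁻¹)) :=
    (fmap_conj E (sup_le hP hKT) (hRT hz)).comp hσ hzM
  refine ⟨_, hg, fun x hx => ?_, ?_⟩
  · rw [← h3 x (Subgroup.mem_sup_left hx), h1 x hx]
  · refine (hg.restrict le_sup_right).fiso_of_card hKT ?_ le_rfl
    intro k hk
    show σ (z * k * z⁻¹) ∈ K
    have hzk : z * k * z⁻¹ ∈ K := hKn z (hRT hz) k hk
    have hzkM : z * k * z⁻¹ ∈ R ⊔ (P ⊔ K) := Subgroup.mem_sup_right (Subgroup.mem_sup_right hzk)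
    obtain ⟨k', hk', h4⟩ := h _ hθ _ hzk
    have h5 : k'⁻¹ * σ (z * k * z⁻¹) ∈ centralizerIn T R := by
      refine ⟨T.mul_mem (T.inv_mem (hKT hk')) (hσ.map_mem hzkM), mem_centralizer_iff'.2 fun y hy => ?_⟩
      obtain ⟨x, hx, rfl⟩ := hθ.mem_iff.1 hy
      have h6 := h4 x hx
      have h7 : z * k * z⁻¹ * x * (z * k * z⁻¹)⁻¹ ∈ R := (Subgroup.mem_normalizer_iff.1 (hn (hKT hzk)) _).1 hx
      rw [← hσ1 _ h7, hσ.map_conj hzkM (Subgroup.mem_sup_left hx), hσ1 x hx] at h6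
      calc k'⁻¹ * σ (z * k * z⁻¹) * f₁ x * (k'⁻¹ * σ (z * k * z⁻¹))⁻¹
          = k'⁻¹ * (σ (z * k * z⁻¹) * f₁ x * (σ (z * k * z⁻¹))⁻¹) * k' := by group
        _ = f₁ x := by rw [h6]; group
    have := K.mul_mem hk' (hRK (hcR h5))
    rwa [mul_inv_cancel_left] at this

end general

section group

variable {G : Type*} [Group G] [Finite G] {p : ℕ} [Fact p.Prime] {S : Sylow p G} {T : Subgroup G}
  {E : FusionSystem T} {Q R M : Subgroup G}

/-- The data of a normal subsystem of a strictly `p`-constrained group. -/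
structure Dat (S : Sylow p G) (T : Subgroup G) (E : FusionSystem T) (Q R : Subgroup G) : Prop where
  hF : (groupFusionSystem (S : Subgroup G)).IsSaturated p
  hEs : E.IsSaturated p
  hi : Inv E (groupFusionSystem (S : Subgroup G))
  hx : Ext E (groupFusionSystem (S : Subgroup G))
  QS : Q ≤ S
  Qn : Q.Normal
  Qc : Subgroup.centralizer (Q : Set G) ≤ Q
  Qm : ∀ N : Subgroup G, N.Normal → IsPGroup p N → N ≤ Q
  Rn : R.Normal
  RQ : R ≤ Q
  RT : R ≤ T
  RE : E.IsNormal R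
  Rc : E.IsCentric R
  Rmax : ∀ K, E.IsNormal K → K ≤ R

theorem fmap_grp {S : Subgroup G} {g : G} (hM : M ≤ S) (h : ∀ x ∈ M, g * x * g⁻¹ ∈ S) :
    FMap (groupFusionSystem S) M (fun x => g * x * g⁻¹) :=
  fmap_group_iff.2 ⟨hM, h, g, fun _ _ => rfl⟩

theorem exists_dat (hG : Subgroup.centralizer ((pCore p G : Subgroup G) : Set G) ≤ pCore p G)
    (hE : E.IsNormalIn (groupFusionSystem (S : Subgroup G)) p) : Dat S T E (pCore p G) E.core := by
  obtain ⟨hEs, hF, hi, hx⟩ := isNormalIn_iff.1 hE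
  have hS := S.isPGroup'
  have hQS := pCore_le_sylow S
  have hQn : (pCore p G).Normal := Cfsg.Agent.Lib.FusionNormal.pCore_normal
  have hTS := hi.closed.1
  have hTf : Finite T := inferInstance
  have hTp := isPGroup_of_le hS hTS
  have hQF : (groupFusionSystem (S : Subgroup G)).IsNormal (pCore p G) := by
    rw [isNormal_iff]
    refine ⟨hQS, fun P f hf => ?_⟩
    obtain ⟨h1, h2, g, h3⟩ := fmap_group_iff.1 hf
    have hc : ∀ x ∈ pCore p G, g * x * g⁻¹ ∈ pCore p G := fun x hx => hQn.conj_mem x hx g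
    refine ⟨fun x => g * x * g⁻¹, fmap_grp (sup_le h1 hQS) ?_, fun x hx => (h3 x hx).symm,
      (fmap_grp hQS fun x hx => hQS (hc x hx)).fiso_of_card hQS hc le_rfl⟩
    have : P ⊔ pCore p G ≤ (S : Subgroup G).comap (MulAut.conj g).toMonoidHom := by
      refine sup_le (fun x hx => ?_) fun x hx => ?_
      · show g * x * g⁻¹ ∈ (S : Subgroup G)
        rw [← h3 x hx]
        exact h2 x hx
      · exact hQS (hc x hx)
    exact fun x hx => this hx
  have hcQ : centralizerIn (S : Subgroup G) (pCore p G) ≤ pCore p G := fun x hx => hG hx.2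
  have hFc : (groupFusionSystem (S : Subgroup G)).IsConstrained p := ⟨hF, _, hQF, centric_of_normal hQF hcQ⟩
  have hEc : E.IsConstrained p := constrained_weaklyNormal hS hFc (isWeaklyNormalIn_iff.2 ⟨hEs, hF, hi⟩)
  have hRF := core_normal hS hE
  have hRE := Cfsg.Agent.Lib.FusionJoin.isNormal_core E
  have hRn : E.core.Normal := by
    refine ⟨fun x hx g => ?_⟩
    obtain ⟨f, hf, h1, h2⟩ := ((isNormal_iff _).1 hRF).2 (pCore p G) (fun x => g * x * g⁻¹)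
      (fmap_grp hQS fun x hx => hQS (hQn.conj_mem x hx g))
    obtain ⟨-, -, k, h3⟩ := fmap_group_iff.1 hf
    have hq : g⁻¹ * k ∈ pCore p G := by
      refine hG (mem_centralizer_iff'.2 fun y hy => ?_)
      have h4 := h3 y (Subgroup.mem_sup_left hy)
      rw [h1 y hy] at h4
      calc g⁻¹ * k * y * (g⁻¹ * k)⁻¹ = g⁻¹ * (k * y * k⁻¹) * g := by group
        _ = y := by rw [← h4]; group
    have hn := normalizes_of_stronglyClosed (isNormal_stronglyClosed hRF)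
    have h5 : (g⁻¹ * k)⁻¹ * x * (g⁻¹ * k) ∈ E.core := by
      have := (Subgroup.mem_normalizer_iff.1 (hn ((S : Subgroup G).inv_mem (hQS hq))) x).1 hx
      rwa [inv_inv] at this
    have h6 := h2.mem h5
    rw [h3 _ (Subgroup.mem_sup_right h5)] at h6
    have e : k * ((g⁻¹ * k)⁻¹ * x * (g⁻¹ * k)) * k⁻¹ = g * x * g⁻¹ := by group
    rwa [e] at h6
  exact
  { hF := hF
    hEs := hEs
    hi := hi
    hx := hx
    QS := hQS
    Qn := hQn
    Qc := hG
    Qm := fun N hN hp => le_pCore hN hp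
    Rn := hRn
    RQ := le_pCore hRn (isPGroup_of_le hS (hRE.1.trans hTS))
    RT := hRE.1
    RE := hRE
    Rc := isCentric_core_of_isConstrained hEc
    Rmax := fun K hK => le_sSup hK }

variable (d : Dat S T E Q R)

include d

theorem Dat.TS : T ≤ S := d.hi.closed.1

theorem Dat.hTp : IsPGroup p T := isPGroup_of_le S.isPGroup' d.TS

theorem Dat.cR : centralizerIn T R ≤ R := d.Rc.2 R (isConj_refl E d.RT)

theorem Dat.tc : TC (groupFusionSystem (S : Subgroup G)) T R := TC.of_centric d.hi.closed d.hi d.Rc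

theorem Dat.fnE : E.IsFullyNormalized R := fullyNormalized_of_stronglyClosed (isNormal_stronglyClosed d.RE)

theorem Dat.fa : E.IsFullyAutomized p R := fullyAutomized_of_fullyNormalized d.hTp d.hEs d.fnE

theorem Dat.fnF : (groupFusionSystem (S : Subgroup G)).IsFullyNormalized R := by
  refine Cfsg.Agent.Lib.FusionStab.fullyNormalized_of_normalizes (d.RT.trans d.TS) fun s _ => ?_
  have := d.Rn
  rw [Subgroup.normalizer_eq_top]
  exact Subgroup.mem_top s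

theorem Dat.conjR (g : G) {x : G} (hx : x ∈ R) : g * x * g⁻¹ ∈ R := d.Rn.conj_mem x hx g

theorem Dat.conjQ (g : G) {x : G} (hx : x ∈ Q) : g * x * g⁻¹ ∈ Q := d.Qn.conj_mem x hx g

theorem Dat.fmapR (g : G) : FMap (groupFusionSystem (S : Subgroup G)) R (fun x => g * x * g⁻¹) :=
  fmap_grp (d.RT.trans d.TS) fun _ hx => d.TS (d.RT (d.conjR g hx))

theorem Dat.fisoR (g : G) : FIso (groupFusionSystem (S : Subgroup G)) R R (fun x => g * x * g⁻¹) :=
  (d.fmapR g).fiso_of_card (d.RT.trans d.TS) (fun _ hx => d.conjR g hx) le_rfl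

/-- conjugation by elements of `G` preserves `Aut_E(R)` -/
theorem Dat.conjE (g : G) {θ : G → G} (h : FIso E R R θ) : FIso E R R (fun x => g * θ (g⁻¹ * x * g) * g⁻¹) := by
  have hfg := (Inv.strong d.hi).transport d.RT (d.fisoR g) (g := fun x => g⁻¹ * x * g) (fun x hx => by group) h
  refine hfg.fiso_of_card d.RT (fun x hx => ?_) le_rfl
  refine d.conjR g (h.mem ?_)
  have := d.conjR g⁻¹ hx
  rwa [inv_inv] at this

/-- elements of `S` inducing `E`-automorphisms on `R` agree on `R` with elements of `T` -/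
theorem Dat.tv {s : G} (hs : s ∈ (S : Subgroup G)) (h : FMap E R (fun x => s * x * s⁻¹)) :
    ∃ t ∈ T, ∀ x ∈ R, t * x * t⁻¹ = s * x * s⁻¹ := by
  obtain ⟨t, ht, h1⟩ := exists_tv S.isPGroup' d.TS d.RT d.fa (s := s)
    ⟨hs, by have := d.Rn; rw [Subgroup.normalizer_eq_top]; exact Subgroup.mem_top s⟩ h
  refine ⟨t, ht.1, fun x hx => ?_⟩
  have h2 := mem_centralizer_iff'.1 h1.2 x hx
  calc t * x * t⁻¹ = t * (t⁻¹ * s * x * (t⁻¹ * s)⁻¹) * t⁻¹ := by rw [h2]
    _ = s * x * s⁻¹ := by group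

/-- elements of `T` acting on `R` like elements of `Q` lie in `R` -/
theorem Dat.rad {t q : G} (ht : t ∈ T) (hq : q ∈ Q) (h : ∀ x ∈ R, t * x * t⁻¹ = q * x * q⁻¹) : t ∈ R := by
  let K : Subgroup G :=
    { carrier := {t | t ∈ T ∧ ∃ q ∈ Q, ∀ x ∈ R, t * x * t⁻¹ = q * x * q⁻¹}
      one_mem' := ⟨T.one_mem, 1, Q.one_mem, fun _ _ => rfl⟩
      mul_mem' := by
        rintro a b ⟨ha, q, hq, h1⟩ ⟨hb, q', hq', h2⟩
        refine ⟨T.mul_mem ha hb, q * q', Q.mul_mem hq hq', fun x hx => ?_⟩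
        calc a * b * x * (a * b)⁻¹ = a * (b * x * b⁻¹) * a⁻¹ := by group
          _ = q * (b * x * b⁻¹) * q⁻¹ := h1 _ (d.conjR b hx)
          _ = q * q' * x * (q * q')⁻¹ := by rw [h2 x hx]; group
      inv_mem' := by
        rintro a ⟨ha, q, hq, h1⟩
        refine ⟨T.inv_mem ha, q⁻¹, Q.inv_mem hq, fun x hx => ?_⟩
        have h2 := h1 _ (d.conjR a⁻¹ hx)
        have e : a * (a⁻¹ * x * a⁻¹⁻¹) * a⁻¹ = x := by group
        rw [e] at h2
        calc a⁻¹ * x * a⁻¹⁻¹ = q⁻¹ * (q * (a⁻¹ * x * a⁻¹⁻¹) * q⁻¹) * q := by group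
          _ = q⁻¹ * x * q⁻¹⁻¹ := by rw [← h2]; group }
  have hTp := d.hTp
  have hKT : K ≤ T := fun x hx => hx.1
  have hK : E.IsNormal K := by
    refine isNormal_of_inducing hTp d.hEs d.RE d.Rc hKT (fun x hx => ⟨d.RT hx, x, d.RQ hx, fun _ _ => rfl⟩) ?_
    rintro θ hθ k ⟨hk, q, hq, h1⟩
    obtain ⟨-, -, g, h2⟩ := fmap_group_iff.1 (sub_fmap d.hi.sub hθ.1)
    have hE1 : FIso E R R (fun x => k * x * k⁻¹) :=
      (fmap_conj E d.RT hk).fiso_of_card d.RT (fun _ hx => d.conjR k hx) le_rfl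
    have hE2 := d.conjE g hE1
    have hE3 : FMap E R (fun x => (g * q * g⁻¹) * x * (g * q * g⁻¹)⁻¹) := by
      refine hE2.1.congr fun x hx => ?_
      have h3 : g⁻¹ * x * g ∈ R := by
        have := d.conjR g⁻¹ hx
        rwa [inv_inv] at this
      show g * (k * (g⁻¹ * x * g) * k⁻¹) * g⁻¹ = _
      rw [h1 _ h3]
      group
    obtain ⟨t', ht', h4⟩ := d.tv (d.QS (d.conjQ g hq)) hE3
    refine ⟨t', ⟨ht', g * q * g⁻¹, d.conjQ g hq, h4⟩, fun x hx => ?_⟩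
    rw [h4 _ (hθ.mem hx), h2 _ (d.conjR k hx), h2 x hx, h1 x hx]
    group
  exact d.Rmax K hK ⟨ht, q, hq, h⟩

theorem Dat.QT {x : G} (hq : x ∈ Q) (ht : x ∈ T) : x ∈ R := d.rad ht hq fun _ _ => rfl

/-- the elements acting on `Q` trivially modulo `R` and on `R` as an `E`-automorphism -/
def Dat.big : Subgroup G where
  carrier := {g | (∀ q ∈ Q, q⁻¹ * (g * q * g⁻¹) ∈ R) ∧ FMap E R (fun x => g * x * g⁻¹)}
  one_mem' := ⟨fun q _ => by simp [R.one_mem], (fmap_id E d.RT).congr fun x _ => by simp⟩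
  mul_mem' := by
    rintro a b ⟨ha, ha'⟩ ⟨hb, hb'⟩
    refine ⟨fun q hq => ?_, (hb'.comp ha' fun x hx => d.conjR b hx).congr fun x hx => by group⟩
    have h1 := d.conjR a (hb q hq)
    have e : q⁻¹ * (a * b * q * (a * b)⁻¹) = (q⁻¹ * (a * q * a⁻¹)) * (a * (q⁻¹ * (b * q * b⁻¹)) * a⁻¹) := by group
    rw [e]
    exact R.mul_mem (ha q hq) h1
  inv_mem' := by
    rintro a ⟨ha, ha'⟩
    refine ⟨fun q hq => ?_, ?_⟩
    · have h1 := ha _ (d.conjQ a⁻¹ hq)
      have e : (q⁻¹ * (a⁻¹ * q * a⁻¹⁻¹)) = ((a⁻¹ * q * a⁻¹⁻¹)⁻¹ * (a * (a⁻¹ * q * a⁻¹⁻¹) * a⁻¹))⁻¹ := by group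
      rw [e]
      exact R.inv_mem h1
    · have hi : FIso E R R (fun x => a * x * a⁻¹) := ha'.fiso_of_card d.RT (fun _ hx => d.conjR a hx) le_rfl
      obtain ⟨g, hg, h1, h2⟩ := hi.symm
      refine hg.1.congr fun x hx => ?_
      have h3 : g x ∈ R := hg.mem hx
      have h4 := h2 x hx
      calc g x = a⁻¹ * (a * g x * a⁻¹) * a := by group
        _ = a⁻¹ * x * a⁻¹⁻¹ := by rw [h4]; group

theorem Dat.mem_big {g : G} : g ∈ d.big ↔ (∀ q ∈ Q, q⁻¹ * (g * q * g⁻¹) ∈ R) ∧ FMap E R (fun x => g * x * g⁻¹) :=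
  Iff.rfl

theorem Dat.big_normal : d.big.Normal := by
  refine ⟨fun a ha g => ⟨fun q hq => ?_, ?_⟩⟩
  · have h1 := d.conjR g (ha.1 _ (d.conjQ g⁻¹ hq))
    have e : q⁻¹ * (g * a * g⁻¹ * q * (g * a * g⁻¹)⁻¹)
      = g * ((g⁻¹ * q * g⁻¹⁻¹)⁻¹ * (a * (g⁻¹ * q * g⁻¹⁻¹) * a⁻¹)) * g⁻¹ := by group
    rw [e]
    exact h1
  · have hi : FIso E R R (fun x => a * x * a⁻¹) := ha.2.fiso_of_card d.RT (fun _ hx => d.conjR a hx) le_rfl
    exact (d.conjE g hi).1.congr fun x hx => by group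

theorem Dat.T_le_big : T ≤ d.big := by
  intro t ht
  refine ⟨fun q hq => ?_, fmap_conj E d.RT ht⟩
  refine d.QT (Q.mul_mem (Q.inv_mem hq) (d.conjQ t hq)) ?_
  have h1 : q⁻¹ * t * q ∈ T := by
    have := (Subgroup.mem_normalizer_iff.1
      (normalizes_of_stronglyClosed d.hi.closed ((S : Subgroup G).inv_mem (d.QS hq))) t).1 ht
    rwa [inv_inv] at this
  have e : q⁻¹ * (t * q * t⁻¹) = (q⁻¹ * t * q) * t⁻¹ := by group
  rw [e]
  exact T.mul_mem h1 (T.inv_mem ht)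

omit d in
theorem pp_conj {S : Subgroup G} {g : G} (hM : M ≤ S) (h : ∀ x ∈ M, g * x * g⁻¹ ∈ M) (ho : ¬ p ∣ orderOf g) :
    PP (groupFusionSystem S) p M (fun x => g * x * g⁻¹) := by
  have hit : ∀ (k : ℕ) (x : G), (fun x => g * x * g⁻¹)^[k] x = g ^ k * x * (g ^ k)⁻¹ := by
    intro k
    induction k with
    | zero => intro x; simp
    | succ k ih =>
      intro x
      rw [Function.iterate_succ_apply', ih, pow_succ']
      group
  refine ⟨(fmap_grp hM fun x hx => hM (h x hx)).fiso_of_card hM h le_rfl, orderOf g, ho, fun x _ => ?_⟩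
  rw [hit, pow_orderOf_eq_one]
  simp

theorem Dat.eq_one {g : G} (ho : (orderOf g).Coprime p) (h : ∀ x ∈ Q, g * x * g⁻¹ = x) : g = 1 := by
  have hg : g ∈ Q := d.Qc (mem_centralizer_iff'.2 h)
  obtain ⟨k, hk⟩ := (isPGroup_of_le S.isPGroup' d.QS) ⟨g, hg⟩
  have hk' : g ^ p ^ k = 1 := congrArg Subtype.val hk
  have h1 : orderOf g ∣ p ^ k := orderOf_dvd_of_pow_eq_one hk'
  exact orderOf_eq_one_iff.1 (Nat.eq_one_of_dvd_coprimes (ho.pow_right k) (dvd_refl _) h1)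

/-- The centralizer of `R` in `big` lies in `Q`. -/
theorem Dat.cent_big {g : G} (hg : g ∈ d.big) (hc : ∀ x ∈ R, g * x * g⁻¹ = x) : g ∈ Q := by
  let N : Subgroup G :=
    { carrier := {g | g ∈ d.big ∧ ∀ x ∈ R, g * x * g⁻¹ = x}
      one_mem' := ⟨d.big.one_mem, fun x _ => by simp⟩
      mul_mem' := by
        rintro a b ⟨ha, ha'⟩ ⟨hb, hb'⟩
        refine ⟨d.big.mul_mem ha hb, fun x hx => ?_⟩
        calc a * b * x * (a * b)⁻¹ = a * (b * x * b⁻¹) * a⁻¹ := by group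
          _ = x := by rw [hb' x hx, ha' x hx]
      inv_mem' := by
        rintro a ⟨ha, ha'⟩
        refine ⟨d.big.inv_mem ha, fun x hx => ?_⟩
        calc a⁻¹ * x * a⁻¹⁻¹ = a⁻¹ * (a * x * a⁻¹) * a⁻¹⁻¹ := by rw [ha' x hx]
          _ = x := by group }
  have hN : N.Normal := by
    refine ⟨fun a ha b => ⟨d.big_normal.conj_mem a ha.1 b, fun x hx => ?_⟩⟩
    have h1 := ha.2 _ (d.conjR b⁻¹ hx)
    calc b * a * b⁻¹ * x * (b * a * b⁻¹)⁻¹ = b * (a * (b⁻¹ * x * b⁻¹⁻¹) * a⁻¹) * b⁻¹ := by group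
      _ = x := by rw [h1]; group
  have hNp : IsPGroup p N := by
    refine Cfsg.Agent.Lib.FusionClosed.isPGroup_of_coprime_trivial fun n ho => ?_
    obtain ⟨n, hn⟩ := n
    rw [Subgroup.orderOf_mk] at ho
    have hpo : ¬ p ∣ orderOf n := fun hd => by
      have := Nat.Coprime.eq_one_of_dvd (ho.symm) hd
      exact (Fact.out : p.Prime).one_lt.ne' this
    refine Subtype.ext (d.eq_one ho fun x hx => ?_)
    have hpp := pp_conj (S := (S : Subgroup G)) d.QS (fun x hx => d.conjQ n hx) hpo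
    exact hpp.fix S.isPGroup' d.RQ hx (hn.1.1 x hx) hn.2
  exact d.Qm N hN hNp ⟨hg, hc⟩

omit d in
theorem exists_pprime_pow (g : G) {a : G → G} {n : ℕ} (hn : ¬ p ∣ n) (hfix : ∀ x ∈ M, a^[n] x = x)
    (ha : ∀ x ∈ M, a x = g * x * g⁻¹) (hM : ∀ x ∈ M, a x ∈ M) :
    ∃ m : ℕ, ¬ p ∣ orderOf (g ^ m) ∧ ∀ x ∈ M, a x = g ^ m * x * (g ^ m)⁻¹ := by
  have hp : p.Prime := Fact.out
  obtain ⟨k, m', hm', hk⟩ := Nat.exists_eq_pow_mul_and_not_dvd (orderOf_pos g).ne' p hp.ne_one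
  have hcop : (p ^ k).Coprime n := Nat.Coprime.pow_left k (hp.coprime_iff_not_dvd.2 hn)
  obtain ⟨m, hm0, hm1⟩ := Nat.chineseRemainder hcop 0 1
  have hm0' : p ^ k ∣ m := (Nat.modEq_zero_iff_dvd).1 hm0
  have hit : ∀ (j : ℕ), ∀ x ∈ M, a^[j] x = g ^ j * x * (g ^ j)⁻¹ ∧ a^[j] x ∈ M := by
    intro j
    induction j with
    | zero => intro x hx; simp [hx]
    | succ j ih =>
      intro x hx
      obtain ⟨h1, h2⟩ := ih x hx
      rw [Function.iterate_succ_apply']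
      refine ⟨?_, hM _ h2⟩
      rw [ha _ h2, h1, pow_succ']
      group
  refine ⟨m, fun hd => hm' ?_, fun x hx => ?_⟩
  · have h1 : (g ^ m) ^ m' = 1 := by
      obtain ⟨c, rfl⟩ := hm0'
      rw [← pow_mul]
      have : p ^ k * c * m' = orderOf g * c := by rw [hk]; ring
      rw [this, pow_mul, pow_orderOf_eq_one, one_pow]
    exact hd.trans (orderOf_dvd_of_pow_eq_one h1)
  · rw [← (hit m x hx).1]
    have h3 : ∀ j : ℕ, a^[n * j] x = x := fun j => iter_fix_mul (hfix x hx) j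
    rcases Nat.lt_or_ge m 1 with h4 | h4
    · have hm00 : m = 0 := by omega
      have h5 : n = 1 := by
        rw [hm00] at hm1
        have := (Nat.modEq_iff_dvd' (by omega : 0 ≤ 1)).1 hm1
        simpa using this
      have h6 := hfix x hx
      rw [h5] at h6
      rw [hm00]
      exact h6
    · have h5 : n ∣ m - 1 := (Nat.modEq_iff_dvd' h4).1 hm1.symm
      obtain ⟨q, hq⟩ := h5
      have h6 : m = n * q + 1 := by omega
      rw [h6, Function.iterate_succ_apply', h3]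

/-- `E`-automorphisms of `R` of order prime to `p` are induced by `p'`-elements of `big`. -/
theorem Dat.exists_rep {θ : G → G} (hθ : PP E p R θ) :
    ∃ g ∈ d.big, ¬ p ∣ orderOf g ∧ ∀ x ∈ R, θ x = g * x * g⁻¹ := by
  obtain ⟨a, ha, h1⟩ := exists_good S.isPGroup' d.hF d.hEs d.hi d.hx d.tc (pp_sub d.hi.sub hθ) hθ.map
  obtain ⟨⟨haM, -⟩, n, hn, hfix⟩ := id ha.pp
  obtain ⟨-, -, g₀, hg₀⟩ := fmap_group_iff.1 haM
  obtain ⟨m, hm, hgm⟩ := exists_pprime_pow g₀ hn hfix hg₀ (fun x hx => ha.pp.mem hx)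
  set g := g₀ ^ m with hgdef
  have hθg : ∀ x ∈ R, θ x = g * x * g⁻¹ := fun x hx => by rw [← h1 x hx, hgm x (Subgroup.mem_sup_left hx)]
  have hθi : FIso E R R (fun x => g * x * g⁻¹) := hθ.1.congr hθg
  have hinv : FMap E R (fun x => g⁻¹ * x * g) := by
    obtain ⟨k, hk, h2, h3⟩ := hθi.symm
    refine hk.1.congr fun x hx => ?_
    have h4 := h3 x hx
    calc k x = g⁻¹ * (g * k x * g⁻¹) * g := by group
      _ = g⁻¹ * x * g := by rw [h4]
  refine ⟨g, ⟨fun q hq => ?_, hθ.map.congr hθg⟩, hm, hθg⟩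
  let Y : Subgroup G :=
    { carrier := {y | y ∈ Q ∧ y⁻¹ * (g * y * g⁻¹) ∈ R}
      one_mem' := ⟨Q.one_mem, by simp [R.one_mem]⟩
      mul_mem' := by
        rintro a b ⟨ha, ha'⟩ ⟨hb, hb'⟩
        refine ⟨Q.mul_mem ha hb, ?_⟩
        have h2 := d.conjR b⁻¹ ha'
        have e : (a * b)⁻¹ * (g * (a * b) * g⁻¹) = (b⁻¹ * (a⁻¹ * (g * a * g⁻¹)) * b⁻¹⁻¹) * (b⁻¹ * (g * b * g⁻¹)) := by
          group
        rw [e]
        exact R.mul_mem h2 hb'
      inv_mem' := by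
        rintro a ⟨ha, ha'⟩
        refine ⟨Q.inv_mem ha, ?_⟩
        have h2 := d.conjR a (R.inv_mem ha')
        have e : a⁻¹⁻¹ * (g * a⁻¹ * g⁻¹) = a * (a⁻¹ * (g * a * g⁻¹))⁻¹ * a⁻¹ := by group
        rw [e]
        exact h2 }
  have hYQ : Y ≤ Q := fun y hy => hy.1
  have hRY : R ≤ Y := fun y hy => ⟨d.RQ hy, R.mul_mem (R.inv_mem hy) (d.conjR g hy)⟩
  have hpp := pp_conj (S := (S : Subgroup G)) d.QS (fun x hx => d.conjQ g hx) hm
  refine hpp.step S.isPGroup' hYQ hRY (fun y _ z hz => ?_) hq ?_ fun y hy => hy.2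
  · have := d.conjR y⁻¹ hz
    rwa [inv_inv] at this
  -- `w = q⁻¹ (g q g⁻¹)` acts on `R` as an inner automorphism
  set w := q⁻¹ * (g * q * g⁻¹) with hw
  have hwQ : w ∈ Q := Q.mul_mem (Q.inv_mem hq) (d.conjQ g hq)
  have hwE : FMap E R (fun x => w * x * w⁻¹) := by
    have h2 := (d.conjE q⁻¹ hθi).1
    refine (hinv.comp h2 fun x hx => ?_).congr fun x hx => ?_
    · have := d.conjR g⁻¹ hx
      rwa [inv_inv] at this
    · rw [hw]
      group
  obtain ⟨t, ht, h3⟩ := d.tv (d.QS hwQ) hwE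
  have htR := d.rad ht hwQ h3
  have hcen : t⁻¹ * w ∈ centralizerIn (S : Subgroup G) R := by
    refine ⟨(S : Subgroup G).mul_mem ((S : Subgroup G).inv_mem (d.TS ht)) (d.QS hwQ),
      mem_centralizer_iff'.2 fun y hy => ?_⟩
    calc t⁻¹ * w * y * (t⁻¹ * w)⁻¹ = t⁻¹ * (w * y * w⁻¹) * t := by group
      _ = y := by rw [← h3 y hy]; group
  have h4 := ha.mod _ hcen
  rw [hgm _ (Subgroup.mem_sup_right hcen)] at h4
  have h5 : t⁻¹ * w ∈ Y := ⟨Q.mul_mem (Q.inv_mem (d.RQ htR)) hwQ, h4⟩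
  have h6 := Y.mul_mem (hRY htR) h5
  rwa [mul_inv_cancel_left] at h6

/-- the subgroup generated by the `p'`-elements of `big` -/
def Dat.B : Subgroup G := Subgroup.closure {g | g ∈ d.big ∧ ¬ p ∣ orderOf g}

theorem Dat.B_le : d.B ≤ d.big := (Subgroup.closure_le _).2 fun _ h => h.1

theorem Dat.B_normal : d.B.Normal := by
  refine ⟨fun a ha g => ?_⟩
  have : d.B ≤ d.B.comap (MulAut.conj g).toMonoidHom := by
    refine (Subgroup.closure_le _).2 ?_
    rintro x ⟨hx, ho⟩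
    refine Subgroup.subset_closure ⟨d.big_normal.conj_mem x hx g, ?_⟩
    rwa [show orderOf ((MulAut.conj g).toMonoidHom x) = orderOf x from (MulAut.conj g).orderOf_eq x]
  exact this ha

theorem Dat.setup : Cfsg.Agent.Lib.H34Cfp.Setup S d.B T Q R where
  PT := d.RT
  TS := d.TS
  VS := d.QS
  Vn := d.Qn
  Pn := d.Rn
  Bn := d.B_normal
  strong := by
    intro t ht g hg
    have h1 := (stronglyClosed_iff _).1 d.hi.closed
    refine h1.2 (Subgroup.zpowers t) (fun x => g * x * g⁻¹) ((Subgroup.zpowers_le).2 ht) ?_ t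
      (Subgroup.mem_zpowers t)
    refine fmap_grp ((Subgroup.zpowers_le).2 (d.TS ht)) ?_
    rintro _ ⟨k, rfl⟩
    have : g * t ^ k * g⁻¹ = (g * t * g⁻¹) ^ k := by rw [conj_zpow]
    show g * t ^ k * g⁻¹ ∈ (S : Subgroup G)
    rw [this]
    exact Subgroup.zpow_mem _ hg k
  gen := Subgroup.closure_mono fun x hx => ⟨Subgroup.subset_closure hx, hx.2⟩
  mod := fun b hb v hv => (d.B_le hb).1 v hv
  BS := by
    intro s hs hsS
    have hsb := d.B_le hs
    obtain ⟨t, ht, h1⟩ := d.tv hsS hsb.2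
    refine ⟨t, ht, t⁻¹ * s, d.cent_big (d.big.mul_mem (d.big.inv_mem (d.T_le_big ht)) hsb) fun x hx => ?_,
      (mul_inv_cancel_left _ _).symm⟩
    calc t⁻¹ * s * x * (t⁻¹ * s)⁻¹ = t⁻¹ * (s * x * s⁻¹) * t := by group
      _ = x := by rw [← h1 x hx]; group

theorem Dat.strong {t g : G} (ht : t ∈ T) (h : g * t * g⁻¹ ∈ (S : Subgroup G)) : g * t * g⁻¹ ∈ T :=
  d.setup.strong t ht g h

/-- the subgroup realizing `E` -/
def Dat.H : Subgroup G := d.B ⊔ T

theorem Dat.T_le : T ≤ d.H := le_sup_right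

theorem Dat.H_le : d.H ≤ d.big := sup_le d.B_le d.T_le_big

theorem Dat.index : ¬ p ∣ T.relIndex d.H := by
  have := d.B_normal
  exact Cfsg.Agent.Lib.H34Cfp.not_dvd_sup S d.setup.inf_le

theorem Dat.exists_sylow : ∃ X : Sylow p d.H, (X : Subgroup d.H) = T.subgroupOf d.H := by
  have hp : IsPGroup p (T.subgroupOf d.H) := d.hTp.comap_subtype
  exact ⟨hp.toSylow d.index, rfl⟩

/-- `Aut_E(R)` is induced by `H`. -/
theorem Dat.exists_H {θ : G → G} (hθ : FIso E R R θ) : ∃ h ∈ d.H, ∀ x ∈ R, θ x = h * x * h⁻¹ := by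
  refine fiso_induction d.fa (fun θ => ∃ h ∈ d.H, ∀ x ∈ R, θ x = h * x * h⁻¹) ?_ ?_ ?_ ?_ ?_ θ hθ
  · rintro f g ⟨h, hh, h1⟩ h2
    exact ⟨h, hh, fun x hx => by rw [← h2 x hx, h1 x hx]⟩
  · rintro s hs
    exact ⟨s, d.T_le hs.1, fun x _ => rfl⟩
  · rintro f g hf _ ⟨h, hh, h1⟩ ⟨k, hk, h2⟩
    refine ⟨k * h, d.H.mul_mem hk hh, fun x hx => ?_⟩
    show g (f x) = _
    rw [h2 _ (hf.mem hx), h1 x hx]
    group
  · rintro f g _ hg ⟨h, hh, h1⟩ - h3
    refine ⟨h⁻¹, d.H.inv_mem hh, fun x hx => ?_⟩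
    have h4 := h3 x hx
    rw [h1 _ (hg.mem hx)] at h4
    calc g x = h⁻¹ * (h * g x * h⁻¹) * h := by group
      _ = h⁻¹ * x * h⁻¹⁻¹ := by rw [h4]; group
  · intro f hf
    obtain ⟨g, hg, ho, h1⟩ := d.exists_rep hf
    exact ⟨g, Subgroup.mem_sup_left (Subgroup.subset_closure ⟨hg, ho⟩), h1⟩

/-- `C_G(R)` normalizes `T`. -/
theorem Dat.cent_norm {x t : G} (hx : ∀ y ∈ R, x * y * x⁻¹ = y) (ht : t ∈ T) : x * t * x⁻¹ ∈ T := by
  have hb : x * t * x⁻¹ * t⁻¹ ∈ d.big :=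
    d.big.mul_mem (d.big_normal.conj_mem t (d.T_le_big ht) x) (d.big.inv_mem (d.T_le_big ht))
  have hQ := d.cent_big hb fun y hy => by
    have hx' : ∀ y ∈ R, x⁻¹ * y * x = y := fun y hy => by
      calc x⁻¹ * y * x = x⁻¹ * (x * y * x⁻¹) * x := by rw [hx y hy]
        _ = y := by group
    have h1 : t⁻¹ * y * t ∈ R := by
      have := d.conjR t⁻¹ hy
      rwa [inv_inv] at this
    calc x * t * x⁻¹ * t⁻¹ * y * (x * t * x⁻¹ * t⁻¹)⁻¹ = x * (t * (x⁻¹ * (t⁻¹ * y * t) * x) * t⁻¹) * x⁻¹ := by group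
      _ = x * y * x⁻¹ := by rw [hx' _ h1]; group
      _ = y := hx y hy
  refine d.strong ht ?_
  have := (S : Subgroup G).mul_mem (d.QS hQ) (d.TS ht)
  rwa [inv_mul_cancel_right] at this

theorem Dat.norm_T {n : G} (hn : ∀ t ∈ T, n * t * n⁻¹ ∈ T) : n ∈ Subgroup.normalizer (d.H : Set G) := by
  refine mem_normalizer_of_conj_mem fun x hx => ?_
  have : d.H ≤ d.H.comap (MulAut.conj n).toMonoidHom :=
    sup_le (fun b hb => Subgroup.mem_sup_left (d.B_normal.conj_mem b hb n))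
      (fun t ht => Subgroup.mem_sup_right (hn t ht))
  exact this hx

theorem Dat.H_normal : d.H.Normal := by
  rw [← Subgroup.normalizer_eq_top_iff, eq_top_iff]
  rintro g -
  obtain ⟨a, f₀, ha, hf₀, h1⟩ := d.hi.frattini d.RT (d.fmapR g)
  obtain ⟨-, -, n, hn⟩ := fmap_group_iff.1 ha.1
  have hnT : ∀ t ∈ T, n * t * n⁻¹ ∈ T := fun t ht => by rw [← hn t ht]; exact ha.mem ht
  have hfR : ∀ x ∈ R, f₀ x ∈ R := by
    intro x hx
    have h2 := h1 x hx
    rw [hn _ (hf₀.map_mem hx)] at h2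
    have h3 : f₀ x = n⁻¹ * (g * x * g⁻¹) * n⁻¹⁻¹ := by rw [h2]; group
    rw [h3]
    exact d.conjR _ (d.conjR g hx)
  obtain ⟨h, hh, h2⟩ := d.exists_H (hf₀.fiso_of_card d.RT hfR le_rfl)
  have hc : ∀ y ∈ R, (n * h)⁻¹ * g * y * ((n * h)⁻¹ * g)⁻¹ = y := by
    intro y hy
    have h3 := h1 y hy
    rw [hn _ (hf₀.map_mem hy), h2 y hy] at h3
    calc (n * h)⁻¹ * g * y * ((n * h)⁻¹ * g)⁻¹ = (n * h)⁻¹ * (g * y * g⁻¹) * (n * h) := by group
      _ = y := by rw [h3]; group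
  have h4 : g = n * h * ((n * h)⁻¹ * g) := by group
  rw [h4]
  exact Subgroup.mul_mem _ (Subgroup.mul_mem _ (d.norm_T hnT) (Subgroup.le_normalizer hh))
    (d.norm_T fun t ht => d.cent_norm hc ht)

/-- the fusion system of `H` on `T` is contained in `E` -/
theorem Dat.le_E : fusionSystemOfSubgroup d.H T d.T_le ≤ E := by
  obtain ⟨X, hX⟩ := d.exists_sylow
  have hs := fusionSystemOfSubgroup_isSaturated d.H T d.T_le X hX
  have hTp := d.hTp
  have hRn : (fusionSystemOfSubgroup d.H T d.T_le).IsNormal R := by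
    rw [isNormal_iff]
    refine ⟨d.RT, fun P f hf => ?_⟩
    obtain ⟨h1, h2, g, hg, h3⟩ := (fmap_subgroup_iff _).1 hf
    have hc : ∀ x ∈ R, g * x * g⁻¹ ∈ R := fun x hx => d.conjR g hx
    have hle : P ⊔ R ≤ T.comap (MulAut.conj g).toMonoidHom := by
      refine sup_le (fun x hx => ?_) fun x hx => ?_
      · show g * x * g⁻¹ ∈ T
        rw [← h3 x hx]
        exact h2 x hx
      · exact d.RT (hc x hx)
    refine ⟨fun x => g * x * g⁻¹, (fmap_subgroup_iff _).2 ⟨sup_le h1 d.RT, fun x hx => hle hx, g, hg, fun _ _ => rfl⟩,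
      fun x hx => (h3 x hx).symm, ?_⟩
    exact ((fmap_subgroup_iff d.T_le).2 ⟨d.RT, fun x hx => d.RT (hc x hx), g, hg, fun _ _ => rfl⟩).fiso_of_card
      d.RT hc le_rfl
  refine alperin_cr hTp hs E fun P hPn hPc hPr => ?_
  have hRP := le_of_isNormal hTp hRn hPc hPr
  intro α hα
  have hPT := hPc.1
  refine (fiso_autFun_iff hPT).1 ?_
  refine fiso_induction (fullyAutomized_of_fullyNormalized hTp hs hPn) (fun f => FIso E P P f) ?_ ?_ ?_ ?_ ?_ _
    ((fiso_autFun_iff hPT).2 hα)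
  · intro f g hf hfg
    exact hf.congr hfg
  · rintro s hs
    exact fiso_conj_of_normalizer E hPT hs.1 hs.2
  · intro f g _ _ hf hg
    exact hf.trans hg
  · intro f g _ hg' hf hgf hfg
    obtain ⟨k, hk, h1, h2⟩ := hf.symm
    refine hk.congr fun x hx => ?_
    have h3 := hfg x hx
    have : g x ∈ P := hg'.mem hx
    calc k x = k (f (g x)) := by rw [h3]
      _ = g x := h1 _ this
  · intro f hf
    obtain ⟨-, -, g, hg, h3⟩ := (fmap_subgroup_iff d.T_le).1 hf.map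
    have hfF : PP (groupFusionSystem (S : Subgroup G)) p P f := pp_sub (subgroup_isSubsystemOf d.T_le d.TS) hf
    have hfE : FMap E R f := (d.H_le hg).2.congr fun x hx => (h3 x (hRP hx)).symm
    have := pp_E S.isPGroup' d.hF d.hEs d.hi d.tc d.fnF hRP
      (fun x hx => ⟨hPT hx, by have := d.Rn; rw [Subgroup.normalizer_eq_top]; exact Subgroup.mem_top x⟩) hfF hfE
      (fun x hx => by rw [h3 x (hRP hx)]; exact d.conjR g hx)
    exact this.fiso_of_card hPT (fun x hx => hf.mem hx) le_rfl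

/-- `E` is contained in the fusion system of `H` on `T` -/
theorem Dat.E_le : E ≤ fusionSystemOfSubgroup d.H T d.T_le := by
  have hTp := d.hTp
  refine alperin_cr hTp d.hEs _ fun P hPn hPc hPr => ?_
  have hRP := le_of_isNormal hTp d.RE hPc hPr
  intro α hα
  have hPT := hPc.1
  refine (fiso_autFun_iff hPT).1 ?_
  refine fiso_induction (fullyAutomized_of_fullyNormalized hTp d.hEs hPn)
    (fun f => FIso (fusionSystemOfSubgroup d.H T d.T_le) P P f) ?_ ?_ ?_ ?_ ?_ _ ((fiso_autFun_iff hPT).2 hα)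
  · intro f g hf hfg
    exact hf.congr hfg
  · rintro s hs
    exact fiso_conj_of_normalizer _ hPT hs.1 hs.2
  · intro f g _ _ hf hg
    exact hf.trans hg
  · intro f g _ hg' hf hgf hfg
    obtain ⟨k, hk, h1, h2⟩ := hf.symm
    refine hk.congr fun x hx => ?_
    have h3 := hfg x hx
    have : g x ∈ P := hg'.mem hx
    calc k x = k (f (g x)) := by rw [h3]
      _ = g x := h1 _ this
  · intro f hf
    have hfR : ∀ x ∈ R, f x ∈ R := fun x hx =>
      StronglyClosed.map_mem _ (isNormal_stronglyClosed d.RE) hf.map (hRP hx) hx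
    obtain ⟨g, hg, ho, h1⟩ := d.exists_rep (hf.restrict hRP hfR)
    have hgH : g ∈ d.H := Subgroup.mem_sup_left (Subgroup.subset_closure ⟨hg, ho⟩)
    have key : ∀ y ∈ P, g * y * g⁻¹ ∈ P := by
      intro y hy
      have hfy := hf.mem hy
      have hc : g * y * g⁻¹ * (f y)⁻¹ ∈ Q := by
        refine d.cent_big (d.big.mul_mem (d.big.mul_mem (d.big.mul_mem hg (d.T_le_big (hPT hy))) (d.big.inv_mem hg))
          (d.big.inv_mem (d.T_le_big (hPT hfy)))) fun x hx => ?_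
        -- write `(f y)⁻¹ x f y = f z`
        obtain ⟨z, hz, hzx⟩ := ((hf.map.restrict hRP).fiso_of_card d.RT hfR le_rfl).mem_iff.1
          (show (f y)⁻¹ * x * (f y)⁻¹⁻¹ ∈ R from d.conjR _ hx)
        have hyz : y * z * y⁻¹ ∈ R := d.conjR y hz
        have h2 := h1 _ hyz
        rw [hf.map.map_conj hy (hRP hz), hzx] at h2
        have h3 : f y * ((f y)⁻¹ * x * (f y)⁻¹⁻¹) * (f y)⁻¹ = x := by group
        rw [h3] at h2
        have h4 := h1 z hz
        rw [hzx] at h4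
        calc g * y * g⁻¹ * (f y)⁻¹ * x * (g * y * g⁻¹ * (f y)⁻¹)⁻¹
            = g * y * g⁻¹ * ((f y)⁻¹ * x * (f y)⁻¹⁻¹) * g * y⁻¹ * g⁻¹ := by group
          _ = x := by rw [h4, h2]; group
      have hS1 : g * y * g⁻¹ ∈ (S : Subgroup G) := by
        have := (S : Subgroup G).mul_mem (d.QS hc) (d.TS (hPT hfy))
        rwa [inv_mul_cancel_right] at this
      have hT1 := d.strong (hPT hy) hS1
      have hR1 : g * y * g⁻¹ * (f y)⁻¹ ∈ R := d.QT hc (T.mul_mem hT1 (T.inv_mem (hPT hfy)))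
      have := P.mul_mem (hRP hR1) hfy
      rwa [inv_mul_cancel_right] at this
    have hgF : FMap (fusionSystemOfSubgroup d.H T d.T_le) P (fun x => g * x * g⁻¹) :=
      (fmap_subgroup_iff _).2 ⟨hPT, fun x hx => hPT (key x hx), g, hgH, fun _ _ => rfl⟩
    have hgE : FMap E P (fun x => g * x * g⁻¹) := le_iff_fmap.1 d.le_E _ _ hgF
    obtain ⟨z, hz, -, h2⟩ := agree_centric hTp d.hEs d.Rc hRP hgE hf.map fun x hx => (h1 x hx).symm
    refine ((fmap_subgroup_iff d.T_le).2 ⟨hPT, fun x hx => hPT (hf.mem hx), g * z,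
      d.H.mul_mem hgH (d.T_le (d.RT hz)), fun x hx => ?_⟩).fiso_of_card hPT (fun x hx => hf.mem hx) le_rfl
    rw [h2 x hx]
    group

theorem Dat.eq : E = fusionSystemOfSubgroup d.H T d.T_le := le_antisymm' d.E_le d.le_E

/-- uniqueness -/
theorem Dat.unique {H' : Subgroup G} (hT : T ≤ H') (hn : H'.Normal) (hX : ∃ X : Sylow p H', (X : Subgroup H') = T.subgroupOf H')
    (h : E = fusionSystemOfSubgroup H' T hT) : H' = d.H := by
  obtain ⟨X, hX⟩ := hX
  have hle : ∀ (L : Subgroup G) (_ : T ≤ L) (Y : Sylow p L), (Y : Subgroup L) = T.subgroupOf L →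
      ∀ x ∈ Q, x ∈ L → x ∈ T := by
    intro L hTL Y hY x hx hxL
    have hQn := d.Qn
    have h1 : IsPGroup p (Q.subgroupOf L) := (isPGroup_of_le S.isPGroup' d.QS).comap_subtype
    have h2 : (Q.subgroupOf L) ≤ (Y : Subgroup L) := by
      have h3 : (Q.subgroupOf L) ≤ pCore p L := Cfsg.Agent.Lib.FusionNormal.le_pCore inferInstance h1
      exact h3.trans (pCore_le_sylow Y)
    have h4 : (⟨x, hxL⟩ : L) ∈ (Y : Subgroup L) := h2 hx
    rw [hY] at h4
    exact h4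
  have hrel : ∀ (L : Subgroup G) (Y : Sylow p L), (Y : Subgroup L) = T.subgroupOf L → ¬ p ∣ T.relIndex L := by
    intro L Y hY
    have := Y.not_dvd_index
    rw [hY] at this
    exact this
  have h1 : H' ≤ d.H := by
    have h2 : H' ≤ d.H ⊓ H' := by
      refine Cfsg.Agent.Lib.H34Cfp.le_of_pprime (R := T) (le_inf d.T_le hT) inf_le_right (hrel H' X hX) ?_
      intro g hg ho
      refine ⟨Subgroup.mem_sup_left (Subgroup.subset_closure ⟨⟨fun q hq => ?_, ?_⟩, ho⟩), hg⟩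
      · have h3 : q⁻¹ * (g * q * g⁻¹) ∈ H' := by
          have h4 := hn.conj_mem g hg q⁻¹
          have e : q⁻¹ * (g * q * g⁻¹) = (q⁻¹ * g * q⁻¹⁻¹) * g⁻¹ := by group
          rw [e]
          exact H'.mul_mem h4 (H'.inv_mem hg)
        have h5 : q⁻¹ * (g * q * g⁻¹) ∈ Q := Q.mul_mem (Q.inv_mem hq) (d.conjQ g hq)
        exact d.QT h5 (hle H' hT X hX _ h5 h3)
      · rw [h]
        exact (fmap_subgroup_iff _).2 ⟨d.RT, fun x hx => d.RT (d.conjR g hx), g, hg, fun _ _ => rfl⟩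
    exact h2.trans inf_le_left
  refine le_antisymm h1 fun g hg => ?_
  have hgE : FMap E R (fun x => g * x * g⁻¹) := (d.H_le hg).2
  rw [h] at hgE
  obtain ⟨-, -, k, hk, h2⟩ := (fmap_subgroup_iff _).1 hgE
  have hkg : k⁻¹ * g ∈ d.H := d.H.mul_mem (d.H.inv_mem (h1 hk)) hg
  have hQ : k⁻¹ * g ∈ Q := by
    refine d.cent_big (d.H_le hkg) fun x hx => ?_
    calc k⁻¹ * g * x * (k⁻¹ * g)⁻¹ = k⁻¹ * (g * x * g⁻¹) * k := by group
      _ = x := by rw [h2 x hx]; group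
  obtain ⟨Y, hY⟩ := d.exists_sylow
  have h3 := hle d.H d.T_le Y hY _ hQ hkg
  have := H'.mul_mem hk (hT h3)
  rwa [mul_inv_cancel_left] at this

end group

end Cfsg.Agent.Lib.FusionStrictN
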