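import Cfsg.Agent.Lib.FusionSupersol
import Cfsg.Agent.Lib.H32PGroup

/-!
Supersoluble fusion systems, part 2: existence of the chain when `S` is normal and the automizer of `S` is
`p`-by-(abelian of exponent `p - 1`).
-/

set_option autoImplicit false
set_option maxHeartbeats 400000

namespace Cfsg.Agent.Lib.FusionSupersol

open Cfsg Cfsg.FusionSystem Cfsg.Agent.Lib.FusionBasic Cfsg.Agent.Lib.FusionSat Cfsg.Agent.Lib.FusionNormal
open Polynomial

section Eigen

variable {p : ℕ} [Fact p.Prime]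

theorem aeval_prod_injective {V : Type*} [AddCommGroup V] [Module (ZMod p) V] (L : V →ₗ[ZMod p] V)
    (h : ∀ (a : ZMod p) (v : V), L v = a • v → v = 0) (s : Multiset (ZMod p)) :
    Function.Injective (aeval L ((s.map fun a => X - C a).prod)) := by
  induction s using Multiset.induction_on with
  | empty =>
    intro a b h
    simpa using h
  | cons a s ih =>
    rw [Multiset.map_cons, Multiset.prod_cons, map_mul]
    have h1 : Function.Injective (aeval L (X - C a : (ZMod p)[X])) := by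
      rw [injective_iff_map_eq_zero]
      intro v hv
      apply h a v
      rw [map_sub, aeval_X, aeval_C, LinearMap.sub_apply] at hv
      rw [sub_eq_zero] at hv
      exact hv
    exact h1.comp ih

theorem exists_eigen {V : Type*} [AddCommGroup V] [Module (ZMod p) V] [Nontrivial V] (L : V →ₗ[ZMod p] V)
    (hL : L ^ (p - 1) = 1) : ∃ (a : ZMod p) (v : V), v ≠ 0 ∧ L v = a • v := by
  by_contra hcon
  push Not at hcon
  have hp : p.Prime := Fact.out
  have h1 : ∀ (a : ZMod p) (v : V), L v = a • v → v = 0 := by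
    intro a v hv
    by_contra h2
    exact hcon a v h2 hv
  have h2 : (X ^ p - X : (ZMod p)[X]) = ((Finset.univ.val : Multiset (ZMod p)).map fun a => X - C a).prod := by
    have h3 := FiniteField.roots_X_pow_card_sub_X (ZMod p)
    rw [ZMod.card] at h3
    have h4 : (X ^ p - X : (ZMod p)[X]).Monic := by
      apply Polynomial.monic_X_pow_sub
      rw [Polynomial.degree_X]
      exact_mod_cast hp.one_lt
    have h5 := Polynomial.prod_multiset_X_sub_C_of_monic_of_roots_card_eq h4 (by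
      rw [h3, FiniteField.X_pow_card_sub_X_natDegree_eq (ZMod p) hp.one_lt]
      show Fintype.card (ZMod p) = p
      exact ZMod.card p)
    rw [h3] at h5
    exact h5.symm
  have h3 := aeval_prod_injective L h1 Finset.univ.val
  rw [← h2] at h3
  have h4 : aeval L (X ^ p - X : (ZMod p)[X]) = 0 := by
    rw [map_sub, map_pow, aeval_X]
    have : L ^ p = L := by
      have h5 : L ^ (p - 1 + 1) = L := by rw [pow_succ, hL, one_mul]
      rwa [Nat.sub_add_cancel hp.one_le] at h5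
    rw [this, sub_self]
  rw [h4] at h3
  obtain ⟨v, hv⟩ := exists_ne (0 : V)
  exact hv (h3 (by simp))

theorem exists_pow_mod {V : Type*} [AddCommGroup V] [Module (ZMod p) V] [Nontrivial V]
    (L : V →+ V) (hL : ∀ v, (L^[p - 1]) v = v) : ∃ (k : ℕ) (v : V), v ≠ 0 ∧ L v = k • v := by
  let L' : V →ₗ[ZMod p] V := L.toZModLinearMap p
  have hpow : ∀ (n : ℕ) (v : V), (L' ^ n) v = (L^[n]) v := by
    intro n
    induction n with
    | zero => intro v; rfl
    | succ n ih =>
      intro v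
      rw [pow_succ', Module.End.mul_apply, ih, Function.iterate_succ', Function.comp_apply]
      rfl
  obtain ⟨a, v, hv, hav⟩ := exists_eigen L' (by
    ext v
    rw [hpow, hL]
    rfl)
  refine ⟨a.val, v, hv, ?_⟩
  have h1 : L v = L' v := rfl
  rw [h1, hav]
  conv_lhs => rw [← ZMod.natCast_zmod_val a]
  exact Nat.cast_smul_eq_nsmul (ZMod p) a.val v

theorem exists_pow_add {V : Type*} [AddCommGroup V] [Nontrivial V] (hp : ∀ a : V, p • a = 0)
    (L : V →+ V) (hL : ∀ v, (L^[p - 1]) v = v) : ∃ (k : ℕ) (v : V), v ≠ 0 ∧ L v = k • v := by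
  letI : Module (ZMod p) V := AddCommGroup.zmodModule hp
  exact exists_pow_mod (p := p) L hL

theorem exists_pow_comm {V : Type*} [CommGroup V] [Nontrivial V] (hp : ∀ a : V, a ^ p = 1)
    (L : V →* V) (hL : ∀ v, (L^[p - 1]) v = v) : ∃ (k : ℕ) (v : V), v ≠ 1 ∧ L v = v ^ k := by
  have hit : ∀ (n : ℕ) (v : V), ((MonoidHom.toAdditive L)^[n]) (Additive.ofMul v) = Additive.ofMul ((L^[n]) v) := by
    intro n
    induction n with
    | zero => intro v; rfl
    | succ n ih => intro v; rw [Function.iterate_succ', Function.comp_apply, ih, Function.iterate_succ',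
        Function.comp_apply]; rfl
  obtain ⟨k, v, hv, hk⟩ := exists_pow_add (p := p) (V := Additive V) (fun a => hp (Additive.toMul a))
    (MonoidHom.toAdditive L) (fun v => (hit (p - 1) (Additive.toMul v)).trans (congrArg Additive.ofMul (hL _)))
  exact ⟨k, Additive.toMul v, hv, hk⟩

theorem exists_pow_of_exp {V : Type*} [Group V] [Nontrivial V] (hc : ∀ a b : V, a * b = b * a)
    (hp : ∀ a : V, a ^ p = 1) (L : V →* V) (hL : ∀ v, (L^[p - 1]) v = v) :
    ∃ (k : ℕ) (v : V), v ≠ 1 ∧ L v = v ^ k := by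
  letI : CommGroup V := { (inferInstance : Group V) with mul_comm := hc }
  exact exists_pow_comm hp L hL

end Eigen

variable {Ω : Type*} [Group Ω] {S : Subgroup Ω} {F : FusionSystem S} {p : ℕ}

theorem sc_of_inv (hN : F.IsNormal S) {T : Subgroup Ω} (hT : T ≤ S)
    (h : ∀ α ∈ F.autGroup S, ∀ y : S, (y : Ω) ∈ T → ((α y : S) : Ω) ∈ T) : F.StronglyClosed T := by
  rw [stronglyClosed_iff]
  refine ⟨hT, fun P f hPT hf x hx => ?_⟩
  obtain ⟨g, hg, hg2, hg3⟩ := ((isNormal_iff F).1 hN).2 P f hf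
  have h1 := h _ hg3.equiv_mem_autGroup ⟨x, hf.le hx⟩ (hPT hx)
  rw [FIso.equiv_apply] at h1
  rw [← hg2 x hx]
  exact h1

/-- complement of the inner automorphisms in `Aut_F(S)` -/
theorem exists_compl [Finite S] [Fact p.Prime] (hS : IsPGroup p S) (hF : F.IsSaturated p) :
    ∃ H : Subgroup (MulAut S), (Nat.card H).Coprime p ∧ H ≤ F.autGroup S ∧
      ∀ α ∈ F.autGroup S, ∃ s : S, ∃ h ∈ H, ∀ y : S, α y = s * h y * s⁻¹ := by
  have hfin : Finite (MulAut S) := inferInstance
  set A := F.autGroup S with hA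
  set N := (Inn S).subgroupOf A with hNdef
  haveI hN : N.Normal := Cfsg.Agent.Lib.FusionAlperin.inn_subgroupOf_normal A
  have h1 := ((isFullyAutomized_iff hS).1 (fullyAutomized_of_fullyNormalized hS hF (isFullyNormalized_top F))).2
  rw [← inn_eq_autInducedBy] at h1
  have hNp : IsPGroup p N := by
    have h2 : IsPGroup p (Inn S) := isPGroup_inn hS le_rfl
    intro x
    obtain ⟨k, hk⟩ := h2 ⟨(x : A), x.2⟩
    refine ⟨k, ?_⟩
    apply Subtype.ext
    apply Subtype.ext
    have h3 : (((x : A) : MulAut S)) ^ p ^ k = 1 := congrArg Subtype.val hk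
    exact h3
  obtain ⟨k, hk⟩ := IsPGroup.iff_card.1 hNp
  have hcop : Nat.Coprime (Nat.card N) N.index := by
    rw [hk]
    exact Nat.Coprime.pow_left k (((Fact.out : p.Prime).coprime_iff_not_dvd).2 h1)
  obtain ⟨H, hH⟩ := Subgroup.exists_right_complement'_of_coprime hcop
  refine ⟨H.map A.subtype, ?_, ?_, ?_⟩
  · rw [Subgroup.card_map_of_injective A.subtype_injective]
    have h2 : Nat.card H = N.index := hH.symm.index_eq_card.symm
    rw [h2, Nat.coprime_comm]
    exact ((Fact.out : p.Prime).coprime_iff_not_dvd).2 h1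
  · rintro _ ⟨h, hh, rfl⟩
    exact h.2
  · intro α hα
    obtain ⟨⟨n, h⟩, hnh⟩ := hH.2 ⟨α, hα⟩
    obtain ⟨s, hs⟩ : ∃ s : S, ∀ y : S, ((n : A) : MulAut S) y = s * y * s⁻¹ := by
      have h2 : ((n : A) : MulAut S) ∈ Inn S := n.2
      rw [inn_eq_autInducedBy, mem_autInducedBy_iff] at h2
      obtain ⟨g, hg, h3⟩ := h2
      exact ⟨⟨g, hg⟩, fun y => Subtype.ext (h3 y)⟩
    refine ⟨s, ((h : A) : MulAut S), ⟨h, h.2, rfl⟩, fun y => ?_⟩
    have h3 : α = ((n : A) : MulAut S) * ((h : A) : MulAut S) := congrArg Subtype.val hnh.symm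
    rw [h3, MulAut.mul_apply, hs]

theorem supersol_of_normal [Finite S] [Fact p.Prime] (hS : IsPGroup p S) (hF : F.IsSaturated p) (hN : F.IsNormal S)
    (hH : ∀ H : Subgroup (MulAut S), H ≤ F.autGroup S → (Nat.card H).Coprime p →
      IsMulCommutative H ∧ ∀ h ∈ H, h ^ (p - 1) = 1) : Supersol F := by
  apply supersol_of_step
  intro T hT hTS
  have hTle : T ≤ S := ((stronglyClosed_iff F).1 hT).1
  -- a minimal strongly closed subgroup above T
  obtain ⟨M, ⟨hM, hTM⟩, hmin⟩ := (measure (fun M : Subgroup Ω => Nat.card M)).wf.has_min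
    {M : Subgroup Ω | F.StronglyClosed M ∧ T < M}
    ⟨S, Cfsg.Agent.Lib.FusionAbel.stronglyClosed_top F, lt_of_le_of_ne hTle hTS⟩
  have hMle : M ≤ S := ((stronglyClosed_iff F).1 hM).1
  have hMfin : Finite M := finite_of_le hMle
  have hmin' : ∀ E : Subgroup Ω, F.StronglyClosed E → T ≤ E → E ≤ M → (∃ x ∈ E, x ∉ T) → E = M := by
    intro E hE hTE hEM ⟨x, hxE, hxT⟩
    by_contra h1
    apply hmin E ⟨hE, lt_of_le_of_ne hTE (fun h => hxT (h ▸ hxE))⟩
    show Nat.card E < Nat.card M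
    apply lt_of_le_of_ne (Nat.card_le_card_of_injective _ (Subgroup.inclusion_injective hEM))
    intro h2
    exact h1 (Subgroup.eq_of_le_of_card_ge hEM h2.ge)
  have hnT := normalizes_of_stronglyClosed hT
  haveI hTn : (T.subgroupOf S).Normal := by
    refine ⟨fun a ha s => ?_⟩
    exact (Subgroup.mem_normalizer_iff.1 (hnT s.2) a).1 ha
  have hmk : ∀ y : S, (QuotientGroup.mk y : S ⧸ T.subgroupOf S) = 1 ↔ (y : Ω) ∈ T := fun y => by
    rw [QuotientGroup.eq_one_iff]; rfl
  have hQ : IsPGroup p (S ⧸ T.subgroupOf S) := hS.to_quotient _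
  obtain ⟨x₀, hx₀M, hx₀T⟩ : ∃ x ∈ M, x ∉ T := SetLike.exists_of_lt hTM
  -- the central elements of order p
  let E : Subgroup Ω :=
    { carrier := {x | x ∈ M ∧ ∃ hx : x ∈ S, (QuotientGroup.mk ⟨x, hx⟩ : S ⧸ T.subgroupOf S) ∈
          Subgroup.center (S ⧸ T.subgroupOf S) ∧ (QuotientGroup.mk ⟨x, hx⟩ : S ⧸ T.subgroupOf S) ^ p = 1}
      one_mem' := ⟨M.one_mem, S.one_mem, Subgroup.one_mem _, one_pow _⟩
      mul_mem' := by
        rintro a b ⟨ha, ha1, ha2, ha3⟩ ⟨hb, hb1, hb2, hb3⟩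
        refine ⟨M.mul_mem ha hb, S.mul_mem ha1 hb1, Subgroup.mul_mem _ ha2 hb2, ?_⟩
        show ((QuotientGroup.mk ⟨a, ha1⟩ : S ⧸ T.subgroupOf S) * QuotientGroup.mk ⟨b, hb1⟩) ^ p = 1
        have h1 : Commute (QuotientGroup.mk ⟨a, ha1⟩ : S ⧸ T.subgroupOf S) (QuotientGroup.mk ⟨b, hb1⟩) :=
          (Subgroup.mem_center_iff.1 ha2 _).symm
        rw [h1.mul_pow, ha3, hb3, one_mul]
      inv_mem' := by
        rintro a ⟨ha, ha1, ha2, ha3⟩
        refine ⟨M.inv_mem ha, S.inv_mem ha1, Subgroup.inv_mem _ ha2, ?_⟩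
        show ((QuotientGroup.mk ⟨a, ha1⟩ : S ⧸ T.subgroupOf S)⁻¹) ^ p = 1
        rw [inv_pow, ha3, inv_one] }
  have hEM : E = M := by
    apply hmin' E
    · apply sc_of_inv hN (fun x (hx : _ ∧ _) => hMle hx.1)
      rintro α hα y ⟨hy1, hy2, hy3, hy4⟩
      refine ⟨aut_mem hM hα hy1, (α y).2, ?_, ?_⟩
      · rw [Subgroup.mem_center_iff]
        intro g
        obtain ⟨s, rfl⟩ := QuotientGroup.mk_surjective g
        have h1 := Subgroup.mem_center_iff.1 hy3 (QuotientGroup.mk (α.symm s))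
        rw [← QuotientGroup.mk_mul, ← QuotientGroup.mk_mul, QuotientGroup.eq] at h1
        have h2 := aut_mem (y := (α.symm s * y)⁻¹ * (y * α.symm s)) hT hα h1
        rw [← QuotientGroup.mk_mul, ← QuotientGroup.mk_mul, QuotientGroup.eq]
        rw [map_mul, map_inv, map_mul, map_mul, MulEquiv.apply_symm_apply] at h2
        exact h2
      · have h1 : (y : Ω) ^ p ∈ T := by
          rw [← QuotientGroup.mk_pow, hmk] at hy4
          exact hy4
        rw [← QuotientGroup.mk_pow, hmk]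
        have h2 := aut_mem hT hα (y := y ^ p) h1
        rw [map_pow] at h2
        exact h2
    · intro t ht
      have h1 : (QuotientGroup.mk ⟨t, hTle ht⟩ : S ⧸ T.subgroupOf S) = 1 := by rw [hmk]; exact ht
      exact ⟨hTM.le ht, hTle ht, by rw [h1]; exact Subgroup.one_mem _, by rw [h1, one_pow]⟩
    · exact fun x hx => hx.1
    · -- nontrivial
      set M' : Subgroup (S ⧸ T.subgroupOf S) := (M.subgroupOf S).map (QuotientGroup.mk' _) with hM'
      haveI hMn : (M.subgroupOf S).Normal := by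
        refine ⟨fun a ha s => ?_⟩
        exact (Subgroup.mem_normalizer_iff.1 (normalizes_of_stronglyClosed hM s.2) a).1 ha
      have hM'n : M'.Normal := hMn.map _ (QuotientGroup.mk'_surjective _)
      have hM'1 : M' ≠ ⊥ := by
        intro h
        have h1 : (QuotientGroup.mk ⟨x₀, hMle hx₀M⟩ : S ⧸ T.subgroupOf S) ∈ M' := ⟨⟨x₀, hMle hx₀M⟩, hx₀M, rfl⟩
        rw [h, Subgroup.mem_bot, hmk] at h1
        exact hx₀T h1
      haveI := hM'n
      obtain ⟨z, hz, hz1, hz2⟩ := Cfsg.Agent.Lib.H32PGroup.exists_mem_center_of_normal hQ M' hM'1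
      obtain ⟨m, hm⟩ := IsPGroup.iff_orderOf.1 hQ z
      have hm0 : m ≠ 0 := by
        rintro rfl
        rw [pow_zero, orderOf_eq_one_iff] at hm
        exact hz1 hm
      obtain ⟨m, rfl⟩ := Nat.exists_eq_succ_of_ne_zero hm0
      obtain ⟨y, hyM, hy⟩ := M'.pow_mem hz (p ^ m)
      have h3 : (z ^ p ^ m) ^ p = 1 := by rw [← pow_mul, ← pow_succ, ← hm, pow_orderOf_eq_one]
      have h4 : z ^ p ^ m ≠ 1 := by
        intro h
        have h5 := orderOf_dvd_of_pow_eq_one h
        rw [hm] at h5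
        exact absurd ((Nat.pow_dvd_pow_iff_le_right (Fact.out : p.Prime).one_lt).1 h5) (by omega)
      have hy' : (QuotientGroup.mk y : S ⧸ T.subgroupOf S) = z ^ p ^ m := hy
      refine ⟨y, ⟨hyM, y.2, ?_, ?_⟩, fun h => h4 ?_⟩
      · show (QuotientGroup.mk y : S ⧸ T.subgroupOf S) ∈ _
        rw [hy']
        exact Subgroup.pow_mem _ hz2 _
      · show (QuotientGroup.mk y : S ⧸ T.subgroupOf S) ^ p = 1
        rw [hy', h3]
      · rw [← hy', hmk]
        exact h
  have hMc : ∀ x : S, (x : Ω) ∈ M → (QuotientGroup.mk x : S ⧸ T.subgroupOf S) ∈ Subgroup.center (S ⧸ T.subgroupOf S) ∧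
      (QuotientGroup.mk x : S ⧸ T.subgroupOf S) ^ p = 1 := by
    intro x hx
    rw [← hEM] at hx
    exact ⟨hx.2.2.1, hx.2.2.2⟩
  obtain ⟨H, hHc, hHF, hHA⟩ := exists_compl hS hF
  obtain ⟨hHab, hHexp⟩ := hH H hHF hHc
  have hHcomm : ∀ a ∈ H, ∀ b ∈ H, ∀ y : S, a (b y) = b (a y) := by
    intro a ha b hb y
    have h1 : a * b = b * a := congrArg Subtype.val (hHab.1.1 ⟨a, ha⟩ ⟨b, hb⟩)
    rw [← MulAut.mul_apply, h1]
    rfl
  -- each element of H acts as a power on M / T
  have hHpow : ∀ h ∈ H, ∃ k : ℕ, ∀ x : S, (x : Ω) ∈ M →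
      (QuotientGroup.mk (h x) : S ⧸ T.subgroupOf S) = (QuotientGroup.mk x) ^ k := by
    intro h hh
    have hle : T.subgroupOf S ≤ (T.subgroupOf S).comap h.toMonoidHom := fun y hy => aut_mem hT (hHF hh) hy
    let Lq : (S ⧸ T.subgroupOf S) →* (S ⧸ T.subgroupOf S) :=
      QuotientGroup.map (T.subgroupOf S) (T.subgroupOf S) h.toMonoidHom hle
    have hLq : ∀ y : S, Lq (QuotientGroup.mk y) = QuotientGroup.mk (h y) := fun y => rfl
    let V : Subgroup (S ⧸ T.subgroupOf S) := (M.subgroupOf S).map (QuotientGroup.mk' _)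
    have hVex : ∀ v : V, ∃ y : S, (y : Ω) ∈ M ∧ (QuotientGroup.mk y : S ⧸ T.subgroupOf S) = v := by
      rintro ⟨_, y, hy, rfl⟩
      exact ⟨y, hy, rfl⟩
    have hLV : ∀ v : V, Lq v ∈ V := by
      intro v
      obtain ⟨y, hy, hyv⟩ := hVex v
      rw [← hyv, hLq]
      exact ⟨h y, aut_mem hM (hHF hh) hy, rfl⟩
    let L : V →* V := (Lq.comp V.subtype).codRestrict V hLV
    have hLit : ∀ (n : ℕ) (y : S) (hy : (y : Ω) ∈ M), (((L^[n]) ⟨QuotientGroup.mk y, ⟨y, hy, rfl⟩⟩ : V) :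
        S ⧸ T.subgroupOf S) = QuotientGroup.mk ((h ^ n) y) := by
      intro n
      induction n with
      | zero => intro y hy; rfl
      | succ n ih =>
        intro y hy
        rw [Function.iterate_succ', Function.comp_apply]
        have h5 : ∀ v : V, ((L v : V) : S ⧸ T.subgroupOf S) = Lq v := fun v => rfl
        rw [h5, ih y hy, hLq, pow_succ']
        rfl
    haveI : Nontrivial V := by
      refine ⟨⟨⟨QuotientGroup.mk ⟨x₀, hMle hx₀M⟩, ⟨x₀, hMle hx₀M⟩, hx₀M, rfl⟩, 1, fun h => hx₀T ?_⟩⟩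
      have h1 : (QuotientGroup.mk ⟨x₀, hMle hx₀M⟩ : S ⧸ T.subgroupOf S) = 1 := congrArg Subtype.val h
      rwa [hmk] at h1
    obtain ⟨k, v, hv, hk⟩ := exists_pow_of_exp (p := p) (V := V)
      (by
        intro a b
        obtain ⟨y, hy, hya⟩ := hVex a
        have h1 := Subgroup.mem_center_iff.1 (hMc y hy).1 b
        rw [hya] at h1
        exact Subtype.ext h1.symm)
      (by
        intro a
        obtain ⟨y, hy, hya⟩ := hVex a
        have h1 := (hMc y hy).2
        rw [hya] at h1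
        exact Subtype.ext h1) L
      (by
        intro a
        obtain ⟨y, hy, hya⟩ := hVex a
        have ha : a = ⟨QuotientGroup.mk y, ⟨y, hy, rfl⟩⟩ := Subtype.ext hya.symm
        apply Subtype.ext
        rw [ha, hLit _ _ hy, hHexp h hh]
        rfl)
    obtain ⟨y, hy, hyv⟩ := hVex v
    have hyT : (y : Ω) ∉ T := by
      intro h1
      rw [← hmk, hyv] at h1
      exact hv (Subtype.ext h1)
    have hky : (QuotientGroup.mk (h y) : S ⧸ T.subgroupOf S) = (QuotientGroup.mk y) ^ k := by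
      have h1 := congrArg Subtype.val hk
      have h2 : ((L v : V) : S ⧸ T.subgroupOf S) = Lq v := rfl
      rw [h2, ← hyv, hLq] at h1
      rw [h1]
      show (v : S ⧸ T.subgroupOf S) ^ k = _
      rw [← hyv]
    let Ek : Subgroup Ω :=
      { carrier := {x | x ∈ M ∧ ∃ hx : x ∈ S, (QuotientGroup.mk (h ⟨x, hx⟩) : S ⧸ T.subgroupOf S) =
            (QuotientGroup.mk ⟨x, hx⟩) ^ k}
        one_mem' := ⟨M.one_mem, S.one_mem, by
          show (QuotientGroup.mk (h 1) : S ⧸ T.subgroupOf S) = (QuotientGroup.mk 1) ^ k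
          rw [map_one, QuotientGroup.mk_one, one_pow]⟩
        mul_mem' := by
          rintro a b ⟨ha, ha1, ha2⟩ ⟨hb, hb1, hb2⟩
          refine ⟨M.mul_mem ha hb, S.mul_mem ha1 hb1, ?_⟩
          show (QuotientGroup.mk (h (⟨a, ha1⟩ * ⟨b, hb1⟩)) : S ⧸ T.subgroupOf S) =
            ((QuotientGroup.mk ⟨a, ha1⟩ : S ⧸ T.subgroupOf S) * QuotientGroup.mk ⟨b, hb1⟩) ^ k
          have h1 : Commute (QuotientGroup.mk ⟨a, ha1⟩ : S ⧸ T.subgroupOf S) (QuotientGroup.mk ⟨b, hb1⟩) :=
            (Subgroup.mem_center_iff.1 (hMc ⟨a, ha1⟩ ha).1 _).symm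
          rw [h1.mul_pow, map_mul, QuotientGroup.mk_mul, ha2, hb2]
        inv_mem' := by
          rintro a ⟨ha, ha1, ha2⟩
          refine ⟨M.inv_mem ha, S.inv_mem ha1, ?_⟩
          show (QuotientGroup.mk (h (⟨a, ha1⟩⁻¹)) : S ⧸ T.subgroupOf S) =
            ((QuotientGroup.mk ⟨a, ha1⟩ : S ⧸ T.subgroupOf S)⁻¹) ^ k
          rw [map_inv, QuotientGroup.mk_inv, ha2, inv_pow] }
    have hEk : Ek = M := by
      apply hmin' Ek
      · apply sc_of_inv hN (fun x (hx : _ ∧ _) => hMle hx.1)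
        rintro α hα z ⟨hz1, hz2, hz3⟩
        refine ⟨aut_mem hM hα hz1, (α z).2, ?_⟩
        show (QuotientGroup.mk (h (α z)) : S ⧸ T.subgroupOf S) = (QuotientGroup.mk (α z)) ^ k
        have hz3' : (QuotientGroup.mk (h z) : S ⧸ T.subgroupOf S) = (QuotientGroup.mk z) ^ k := hz3
        obtain ⟨s, h', hh', hαs⟩ := hHA α hα
        have hz4 : ((h' z : S) : Ω) ∈ M := aut_mem hM (hHF hh') hz1
        have hz5 : ((h (h' z) : S) : Ω) ∈ M := aut_mem hM (hHF hh) hz4
        -- mod T conjugation is trivial on M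
        have hcj : ∀ (u w : S), (w : Ω) ∈ M →
            (QuotientGroup.mk (u * w * u⁻¹) : S ⧸ T.subgroupOf S) = QuotientGroup.mk w := by
          intro u w hw
          rw [QuotientGroup.mk_mul, QuotientGroup.mk_mul, Subgroup.mem_center_iff.1 (hMc w hw).1, QuotientGroup.mk_inv,
            mul_inv_cancel_right]
        rw [hαs, hcj _ _ hz4, map_mul, map_mul, map_inv, hcj _ _ hz5, hHcomm h hh h' hh']
        have h1 : (z ^ k)⁻¹ * h z ∈ T.subgroupOf S := by
          rw [← QuotientGroup.eq, QuotientGroup.mk_pow]; exact hz3'.symm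
        have h2 : (QuotientGroup.mk ((h' z) ^ k) : S ⧸ T.subgroupOf S) = QuotientGroup.mk (h' (h z)) := by
          rw [QuotientGroup.eq, ← map_pow, ← map_inv, ← map_mul]
          exact aut_mem hT (hHF hh') h1
        rw [← h2, QuotientGroup.mk_pow]
      · intro t ht
        refine ⟨hTM.le ht, hTle ht, ?_⟩
        have h1 : (QuotientGroup.mk ⟨t, hTle ht⟩ : S ⧸ T.subgroupOf S) = 1 := by rw [hmk]; exact ht
        have h2 : (QuotientGroup.mk (h ⟨t, hTle ht⟩) : S ⧸ T.subgroupOf S) = 1 := by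
          rw [hmk]; exact aut_mem hT (hHF hh) (y := ⟨t, hTle ht⟩) ht
        rw [h1, h2, one_pow]
      · exact fun x (hx : _ ∧ _) => hx.1
      · exact ⟨y, ⟨hy, y.2, hky⟩, hyT⟩
    refine ⟨k, fun x hx => ?_⟩
    rw [← hEk] at hx
    exact hx.2.2
  refine ⟨x₀, hMle hx₀M, hx₀T, ?_⟩
  have hle : T ⊔ Subgroup.zpowers x₀ ≤ M := sup_le hTM.le (by rwa [Subgroup.zpowers_le])
  apply sc_of_inv hN (hle.trans hMle)
  intro α hα y hy
  obtain ⟨s, h, hh, hαs⟩ := hHA α hα
  obtain ⟨k, hk⟩ := hHpow h hh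
  have hyM : (y : Ω) ∈ M := hle hy
  have h1 : (QuotientGroup.mk (y ^ k) : S ⧸ T.subgroupOf S) = QuotientGroup.mk (α y) := by
    have hhy : ((h y : S) : Ω) ∈ M := aut_mem hM (hHF hh) hyM
    rw [hαs, QuotientGroup.mk_mul, QuotientGroup.mk_mul, Subgroup.mem_center_iff.1 (hMc _ hhy).1, QuotientGroup.mk_inv,
      mul_inv_cancel_right, hk y hyM, QuotientGroup.mk_pow]
  rw [QuotientGroup.eq, Subgroup.mem_subgroupOf] at h1
  have h2 : ((α y : S) : Ω) = (y : Ω) ^ k * ((((y ^ k)⁻¹ * α y : S)) : Ω) := by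
    push_cast
    rw [mul_inv_cancel_left]
  rw [h2]
  exact Subgroup.mul_mem _ (Subgroup.pow_mem _ hy _) (Subgroup.mem_sup_left h1)

end Cfsg.Agent.Lib.FusionSupersol
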