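import Cfsg.Agent.Lib.FusionSupersol2
import Cfsg.Agent.Lib.H88Distinct

/-!
Supersoluble fusion systems, part 3: abelian groups.
-/

set_option autoImplicit false
set_option maxHeartbeats 400000

namespace Cfsg.Agent.Lib.FusionSupersol

open Cfsg Cfsg.FusionSystem Cfsg.Agent.Lib.FusionBasic Cfsg.Agent.Lib.FusionSat Cfsg.Agent.Lib.FusionNormal
open Cfsg.Agent.Lib.H88Distinct

section Abelian

variable {p : ℕ} [Fact p.Prime]

theorem thin_or {A : Type*} [CommGroup A] [Finite A] (hA : IsPGroup p A) : Thin p A ∨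
    ∃ (n : ℕ) (H : Type) (_ : CommGroup H), 0 < n ∧
      Nonempty (A ≃* (Multiplicative (ZMod (p ^ n)) × Multiplicative (ZMod (p ^ n))) × H) := by
  classical
  obtain ⟨ι, _, n, hn, ⟨φ⟩⟩ := CommGroup.equiv_prod_multiplicative_zmod_of_finite A
  have hne : ∀ i, NeZero (n i) := fun i => ⟨by have := hn i; omega⟩
  have hpow : ∀ i, ∃ e : ℕ, n i = p ^ e := by
    intro i
    have h1 : IsPGroup p ((i : ι) → Multiplicative (ZMod (n i))) := hA.of_equiv φ
    have h2 : IsPGroup p (Multiplicative (ZMod (n i))) :=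
      h1.of_surjective (Pi.evalMonoidHom (fun i => Multiplicative (ZMod (n i))) i) (Function.surjective_eval i)
    obtain ⟨e, he⟩ := IsPGroup.iff_card.1 h2
    refine ⟨e, ?_⟩
    rw [← he]
    show n i = Nat.card (ZMod (n i))
    rw [Nat.card_zmod]
  choose e he using hpow
  have he' : n = fun i => p ^ e i := funext he
  subst he'
  by_cases hinj : Function.Injective e
  · left
    exact thin_of_equiv (p := p) e hinj (φ.trans (MulEquiv.piMultiplicative _).symm)
  · right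
    rw [Function.Injective] at hinj
    push Not at hinj
    obtain ⟨i, j, hij, hne'⟩ := hinj
    refine ⟨e i, ((k : {k : ι // k ≠ i ∧ k ≠ j}) → Multiplicative (ZMod (p ^ e k))), inferInstance, ?_, ⟨φ.trans ?_⟩⟩
    · rcases Nat.eq_zero_or_pos (e i) with h | h
      · have h1 : 1 < p ^ e i := hn i
        rw [h, pow_zero] at h1
        omega
      · exact h
    · have hc : Multiplicative (ZMod (p ^ e j)) ≃* Multiplicative (ZMod (p ^ e i)) := by rw [hij]
      refine ⟨⟨fun f => ((f i, hc (f j)), fun k => f k),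
        fun g k => if h : k = i then h ▸ g.1.1 else if h' : k = j then h' ▸ (hc.symm g.1.2) else g.2 ⟨k, h, h'⟩,
        ?_, ?_⟩, ?_⟩
      · intro f
        funext k
        by_cases h : k = i
        · subst h
          simp
        · by_cases h' : k = j
          · subst h'
            simp [h]
          · simp [h, h']
      · rintro ⟨⟨a, b⟩, c⟩
        refine Prod.ext (Prod.ext ?_ ?_) ?_
        · simp
        · simp [hne'.symm]
        · funext k
          simp [k.2.1, k.2.2]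
      · intro f g
        refine Prod.ext (Prod.ext rfl ?_) rfl
        exact map_mul hc _ _

/-- the automorphism of order 3 -/
def rot {Z H : Type*} [CommGroup Z] [Group H] : MulAut ((Z × Z) × H) where
  toFun x := ((x.1.2⁻¹, x.1.1 * x.1.2⁻¹), x.2)
  invFun x := ((x.1.2 * x.1.1⁻¹, x.1.1⁻¹), x.2)
  left_inv := by rintro ⟨⟨a, b⟩, c⟩; simp
  right_inv := by rintro ⟨⟨a, b⟩, c⟩; simp
  map_mul' := by
    rintro ⟨⟨a, b⟩, c⟩ ⟨⟨a', b'⟩, c'⟩
    have h1 : a * a' * (b⁻¹ * b'⁻¹) = a * b⁻¹ * (a' * b'⁻¹) := mul_mul_mul_comm _ _ _ _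
    simp only [Prod.mk_mul_mk, mul_inv, h1]

theorem rot_pow_three {Z H : Type*} [CommGroup Z] [Group H] : (rot (Z := Z) (H := H)) ^ 3 = 1 := by
  apply MulEquiv.ext
  rintro ⟨⟨a, b⟩, c⟩
  rw [pow_succ, pow_two, MulAut.mul_apply, MulAut.mul_apply]
  simp [rot]

/-- swapping -/
def swp {Z H : Type*} [CommGroup Z] [Group H] : MulAut ((Z × Z) × H) where
  toFun x := ((x.1.2, x.1.1), x.2)
  invFun x := ((x.1.2, x.1.1), x.2)
  left_inv := by rintro ⟨⟨a, b⟩, c⟩; rfl
  right_inv := by rintro ⟨⟨a, b⟩, c⟩; rfl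
  map_mul' := by rintro ⟨⟨a, b⟩, c⟩ ⟨⟨a', b'⟩, c'⟩; rfl

/-- inverting the first factor -/
def ivt {Z H : Type*} [CommGroup Z] [Group H] : MulAut ((Z × Z) × H) where
  toFun x := ((x.1.1⁻¹, x.1.2), x.2)
  invFun x := ((x.1.1⁻¹, x.1.2), x.2)
  left_inv := by rintro ⟨⟨a, b⟩, c⟩; simp
  right_inv := by rintro ⟨⟨a, b⟩, c⟩; simp
  map_mul' := by
    rintro ⟨⟨a, b⟩, c⟩ ⟨⟨a', b'⟩, c'⟩
    simp [mul_comm]

theorem units_sq (ε : ℤˣ) : (ε : ℤ) * ε = 1 := by
  rcases Int.units_eq_one_or ε with rfl | rfl <;> rfl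

/-- the dihedral group of order 8 -/
def dih (Z H : Type*) [CommGroup Z] [Group H] : Subgroup (MulAut ((Z × Z) × H)) where
  carrier := {α | ∃ ε δ : ℤˣ, (∀ x y h, α ((x, y), h) = ((x ^ (ε : ℤ), y ^ (δ : ℤ)), h)) ∨
    (∀ x y h, α ((x, y), h) = ((y ^ (ε : ℤ), x ^ (δ : ℤ)), h))}
  one_mem' := ⟨1, 1, Or.inl (fun x y h => by simp)⟩
  mul_mem' := by
    rintro α β ⟨ε, δ, hα | hα⟩ ⟨ε', δ', hβ | hβ⟩
    · exact ⟨ε' * ε, δ' * δ, Or.inl (fun x y h => by
        rw [MulAut.mul_apply, hβ, hα, ← zpow_mul, ← zpow_mul, Units.val_mul, Units.val_mul])⟩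
    · exact ⟨ε' * ε, δ' * δ, Or.inr (fun x y h => by
        rw [MulAut.mul_apply, hβ, hα, ← zpow_mul, ← zpow_mul, Units.val_mul, Units.val_mul])⟩
    · exact ⟨δ' * ε, ε' * δ, Or.inr (fun x y h => by
        rw [MulAut.mul_apply, hβ, hα, ← zpow_mul, ← zpow_mul, Units.val_mul, Units.val_mul])⟩
    · exact ⟨δ' * ε, ε' * δ, Or.inl (fun x y h => by
        rw [MulAut.mul_apply, hβ, hα, ← zpow_mul, ← zpow_mul, Units.val_mul, Units.val_mul])⟩
  inv_mem' := by
    rintro α ⟨ε, δ, hα | hα⟩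
    · refine ⟨ε, δ, Or.inl (fun x y h => ?_)⟩
      apply α.injective
      rw [MulAut.apply_inv_self, hα, ← zpow_mul, ← zpow_mul, units_sq, units_sq, zpow_one, zpow_one]
    · refine ⟨δ, ε, Or.inr (fun x y h => ?_)⟩
      apply α.injective
      rw [MulAut.apply_inv_self, hα, ← zpow_mul, ← zpow_mul, units_sq, units_sq, zpow_one, zpow_one]

theorem dih_isPGroup (Z H : Type*) [CommGroup Z] [Group H] : IsPGroup 2 (dih Z H) := by
  rintro ⟨α, ε, δ, hα | hα⟩
  · refine ⟨2, ?_⟩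
    apply Subtype.ext
    apply MulEquiv.ext
    rintro ⟨⟨a, b⟩, c⟩
    show (α ^ 2 ^ 2) _ = _
    rw [show 2 ^ 2 = 1 + 1 + 1 + 1 from rfl, pow_succ, pow_succ, pow_succ, pow_one, MulAut.mul_apply, MulAut.mul_apply,
      MulAut.mul_apply, hα, hα, hα, hα]
    simp only [← zpow_mul, units_sq, one_mul, zpow_one]
    simp [mul_assoc, units_sq]
  · refine ⟨2, ?_⟩
    apply Subtype.ext
    apply MulEquiv.ext
    rintro ⟨⟨a, b⟩, c⟩
    show (α ^ 2 ^ 2) _ = _
    rw [show 2 ^ 2 = 1 + 1 + 1 + 1 from rfl, pow_succ, pow_succ, pow_succ, pow_one, MulAut.mul_apply, MulAut.mul_apply,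
      MulAut.mul_apply, hα, hα, hα, hα]
    simp only [← zpow_mul]
    have h1 : (δ : ℤ) * ε * δ * ε = 1 := by
      have h2 := units_sq ε
      have h3 := units_sq δ
      linear_combination (δ : ℤ) * δ * h2 + h3
    have h2 : (ε : ℤ) * δ * ε * δ = 1 := by
      have h2 := units_sq ε
      have h3 := units_sq δ
      linear_combination (δ : ℤ) * δ * h2 + h3
    rw [h1, h2, zpow_one, zpow_one]
    rfl

theorem violates {A H : Type*} [Group A] [Finite A] [Group H] {n : ℕ} (hn : 0 < n)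
    (e : A ≃* (Multiplicative (ZMod (p ^ n)) × Multiplicative (ZMod (p ^ n))) × H) :
    ¬ ∀ K : Subgroup (MulAut A), (Nat.card K).Coprime p → IsMulCommutative K ∧ ∀ h ∈ K, h ^ (p - 1) = 1 := by
  intro hcon
  have hp : p.Prime := Fact.out
  let c : MulAut ((Multiplicative (ZMod (p ^ n)) × Multiplicative (ZMod (p ^ n))) × H) ≃* MulAut A :=
    MulAut.congr e.symm
  have hne1 : (1 : ZMod (p ^ n)) ≠ 0 := by
    have : Fact (1 < p ^ n) := ⟨Nat.one_lt_pow hn.ne' hp.one_lt⟩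
    exact one_ne_zero
  rcases hp.eq_two_or_odd with h2 | hodd
  · subst h2
    have h3 : c rot ^ 3 = 1 := by rw [← map_pow, rot_pow_three, map_one]
    obtain ⟨-, h4⟩ := hcon (Subgroup.zpowers (c rot)) (by
      rw [Nat.card_zpowers]
      exact Nat.Coprime.coprime_dvd_left (orderOf_dvd_of_pow_eq_one h3) (by norm_num))
    have h5 := h4 (c rot) (Subgroup.mem_zpowers _)
    rw [show 2 - 1 = 1 from rfl, pow_one] at h5
    have h6 : (rot : MulAut ((Multiplicative (ZMod (2 ^ n)) × Multiplicative (ZMod (2 ^ n))) × H)) = 1 := by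
      apply c.injective
      rw [h5, map_one]
    have h7 := congrArg (fun α : MulAut ((Multiplicative (ZMod (2 ^ n)) × Multiplicative (ZMod (2 ^ n))) × H) =>
      (α ((Multiplicative.ofAdd 1, 1), 1)).1.2) h6
    simp [rot] at h7
    exact hne1 h7
  · have hK : IsPGroup 2 ((dih (Multiplicative (ZMod (p ^ n))) H).map c.toMonoidHom) :=
      (dih_isPGroup _ _).map c.toMonoidHom
    have h2p : Fact (Nat.Prime 2) := ⟨Nat.prime_two⟩
    obtain ⟨k, hk⟩ := IsPGroup.iff_card.1 hK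
    obtain ⟨h4, -⟩ := hcon _ (by
      rw [hk]
      exact Nat.Coprime.pow_left k ((Nat.coprime_primes Nat.prime_two hp).2 (by rintro rfl; omega)))
    have hs : (swp : MulAut ((Multiplicative (ZMod (p ^ n)) × Multiplicative (ZMod (p ^ n))) × H)) ∈
        dih (Multiplicative (ZMod (p ^ n))) H := ⟨1, 1, Or.inr (fun x y h => by simp [swp])⟩
    have ht : (ivt : MulAut ((Multiplicative (ZMod (p ^ n)) × Multiplicative (ZMod (p ^ n))) × H)) ∈
        dih (Multiplicative (ZMod (p ^ n))) H := ⟨-1, 1, Or.inl (fun x y h => by simp [ivt])⟩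
    have h5 := congrArg Subtype.val (h4.1.1 ⟨c swp, swp, hs, rfl⟩ ⟨c ivt, ivt, ht, rfl⟩)
    have h6 : (swp * ivt : MulAut ((Multiplicative (ZMod (p ^ n)) × Multiplicative (ZMod (p ^ n))) × H)) =
        ivt * swp := by
      apply c.injective
      rw [map_mul, map_mul]
      exact h5
    have h7 := congrArg (fun α : MulAut ((Multiplicative (ZMod (p ^ n)) × Multiplicative (ZMod (p ^ n))) × H) =>
      (α ((Multiplicative.ofAdd 1, 1), 1)).1.2) h6
    simp only [MulAut.mul_apply] at h7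
    have h8 : (Multiplicative.ofAdd (1 : ZMod (p ^ n)))⁻¹ = Multiplicative.ofAdd 1 := h7
    have h9 : (-1 : ZMod (p ^ n)) = 1 := h8
    have h10 : ((2 : ℕ) : ZMod (p ^ n)) = 0 := by
      push_cast
      linear_combination -h9
    rw [ZMod.natCast_eq_zero_iff] at h10
    have h11 : p ∣ 2 := (dvd_pow_self p hn.ne').trans h10
    rw [Nat.prime_dvd_prime_iff_eq hp Nat.prime_two] at h11
    omega

end Abelian

variable {Ω : Type*} [Group Ω] {S : Subgroup Ω} {F : FusionSystem S} {p : ℕ}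

theorem supersol_of_thin [Finite S] [Fact p.Prime] (hS : IsPGroup p S) (hN : F.IsNormal S)
    (hab : ∀ x ∈ S, ∀ y ∈ S, x * y = y * x) (hT : Thin p S) : Supersol F := by
  obtain ⟨N, hN'⟩ : ∃ N : ℕ, ∀ x ∈ S, x ^ p ^ N = 1 := by
    obtain ⟨N, hN⟩ := IsPGroup.iff_card.1 hS
    refine ⟨N, fun x hx => ?_⟩
    have h1 : (⟨x, hx⟩ : S) ^ p ^ N = 1 := by rw [← hN]; exact pow_card_eq_one'
    exact congrArg Subtype.val h1
  have hmp : ∀ (n : ℕ) (a b : Ω), a ∈ S → b ∈ S → (a * b) ^ n = a ^ n * b ^ n := by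
    intro n a b ha hb
    exact (show Commute a b from hab a ha b hb).mul_pow n
  let C : ℕ → ℕ → Subgroup Ω := fun j m =>
    { carrier := {x | x ∈ S ∧ x ^ p ^ (j + 1) = 1 ∧ ∃ u ∈ S, u ^ p ^ m = x ^ p ^ j}
      one_mem' := ⟨S.one_mem, one_pow _, 1, S.one_mem, by rw [one_pow, one_pow]⟩
      mul_mem' := by
        rintro a b ⟨ha, ha1, u, hu, hu1⟩ ⟨hb, hb1, v, hv, hv1⟩
        refine ⟨S.mul_mem ha hb, ?_, u * v, S.mul_mem hu hv, ?_⟩
        · rw [hmp _ _ _ ha hb, ha1, hb1, one_mul]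
        · rw [hmp _ _ _ hu hv, hu1, hv1, hmp _ _ _ ha hb]
      inv_mem' := by
        rintro a ⟨ha, ha1, u, hu, hu1⟩
        refine ⟨S.inv_mem ha, ?_, u⁻¹, S.inv_mem hu, ?_⟩
        · rw [inv_pow, ha1, inv_one]
        · rw [inv_pow, inv_pow, hu1] }
  have hCmem : ∀ j m x, x ∈ C j m ↔ x ∈ S ∧ x ^ p ^ (j + 1) = 1 ∧ ∃ u ∈ S, u ^ p ^ m = x ^ p ^ j :=
    fun _ _ _ => Iff.rfl
  have hSC : ∀ j m, F.StronglyClosed (C j m) := by
    intro j m
    apply sc_of_inv hN (fun x (hx : _ ∧ _) => hx.1)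
    rintro α - y ⟨hy, hy1, u, hu, hu1⟩
    refine ⟨(α y).2, ?_, (α ⟨u, hu⟩ : S), (α ⟨u, hu⟩).2, ?_⟩
    · have h1 : y ^ p ^ (j + 1) = 1 := Subtype.ext hy1
      have h2 : (α y) ^ p ^ (j + 1) = 1 := by rw [← map_pow, h1, map_one]
      exact congrArg Subtype.val h2
    · have h1 : (⟨u, hu⟩ : S) ^ p ^ m = y ^ p ^ j := Subtype.ext hu1
      have h2 : (α ⟨u, hu⟩) ^ p ^ m = (α y) ^ p ^ j := by rw [← map_pow, h1, map_pow]
      exact congrArg Subtype.val h2
  have hle : ∀ j m, C j (m + 1) ≤ C j m := by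
    rintro j m x ⟨hx, hx1, u, hu, hu1⟩
    exact ⟨hx, hx1, u ^ p, S.pow_mem hu _, by rw [← pow_mul, ← pow_succ', hu1]⟩
  have hstep : ∀ j m, Step F (C j (m + 1)) (C j m) := by
    intro j m
    refine ⟨hle j m, hSC j m, ?_⟩
    by_cases h : C j m ≤ C j (m + 1)
    · refine ⟨1, S.one_mem, ?_⟩
      rw [Subgroup.zpowers_one_eq_bot, sup_bot_eq]
      exact le_antisymm h (hle j m)
    · obtain ⟨x, hx, hx'⟩ := SetLike.not_le_iff_exists.1 h
      have hx0 := hx
      obtain ⟨hxS, hx1, u, hu, hu1⟩ := hx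
      refine ⟨x, hxS, ?_⟩
      apply le_antisymm
      · intro y hy
        obtain ⟨hyS, hy1, v, hv, hv1⟩ := hy
        obtain ⟨k, w, hw⟩ := hT m ((⟨x, hxS⟩ : S) ^ p ^ j) ((⟨y, hyS⟩ : S) ^ p ^ j)
          (by
            apply Subtype.ext
            show (x ^ p ^ j) ^ p = 1
            rw [← pow_mul, ← pow_succ, hx1])
          (by
            apply Subtype.ext
            show (y ^ p ^ j) ^ p = 1
            rw [← pow_mul, ← pow_succ, hy1])
          ⟨⟨u, hu⟩, Subtype.ext hu1⟩ ⟨⟨v, hv⟩, Subtype.ext hv1⟩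
          (by
            rintro ⟨w, hw⟩
            exact hx' ⟨hxS, hx1, w, w.2, congrArg Subtype.val hw⟩)
        have hw' : (w : Ω) ^ p ^ (m + 1) = y ^ p ^ j * (x ^ p ^ j) ^ k := congrArg Subtype.val hw
        have hpz : ∀ n : ℕ, (x ^ n) ^ k = (x ^ k) ^ n := by
          intro n
          rw [← zpow_natCast, ← zpow_natCast, ← zpow_mul, ← zpow_mul, mul_comm]
        have h1 : y * x ^ k ∈ C j (m + 1) := by
          refine ⟨S.mul_mem hyS (S.zpow_mem hxS k), ?_, w, w.2, ?_⟩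
          · rw [hmp _ _ _ hyS (S.zpow_mem hxS k), hy1, one_mul, ← hpz, hx1, one_zpow]
          · rw [hmp _ _ _ hyS (S.zpow_mem hxS k), hw', hpz]
        have h2 : y = y * x ^ k * (x ^ k)⁻¹ := by group
        rw [h2]
        exact Subgroup.mul_mem _ (Subgroup.mem_sup_left h1)
          (Subgroup.inv_mem _ (Subgroup.mem_sup_right (Subgroup.zpow_mem _ (Subgroup.mem_zpowers x) k)))
      · exact sup_le (hle j m) (by rw [Subgroup.zpowers_le]; exact hx0)
  have hdown : ∀ j m, Relation.ReflTransGen (Step F) (C j m) (C j 0) := by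
    intro j m
    induction m with
    | zero => exact Relation.ReflTransGen.refl
    | succ m ih => exact ih.head (hstep j m)
  have h0 : C 0 N = ⊥ := by
    rw [eq_bot_iff]
    rintro x ⟨hx, hx1, u, hu, hu1⟩
    rw [hN' u hu, pow_zero, pow_one] at hu1
    exact hu1.symm
  have hnext : ∀ j, C (j + 1) N = C j 0 := by
    intro j
    ext x
    rw [hCmem, hCmem]
    constructor
    · rintro ⟨hx, hx1, u, hu, hu1⟩
      rw [hN' u hu] at hu1
      exact ⟨hx, hu1.symm, x ^ p ^ j, S.pow_mem hx _, by rw [pow_zero, pow_one]⟩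
    · rintro ⟨hx, hx1, u, hu, hu1⟩
      refine ⟨hx, ?_, 1, S.one_mem, ?_⟩
      · rw [pow_succ, pow_mul, hx1, one_pow]
      · rw [one_pow, hx1]
  have hup : ∀ j, Relation.ReflTransGen (Step F) ⊥ (C j 0) := by
    intro j
    induction j with
    | zero => rw [← h0]; exact hdown 0 N
    | succ j ih => exact ih.trans (by rw [← hnext]; exact hdown (j + 1) N)
  have htop : C N 0 = S := by
    apply le_antisymm
    · exact fun x (hx : _ ∧ _) => hx.1
    · intro x hx
      refine ⟨hx, ?_, x ^ p ^ N, S.pow_mem hx _, by rw [pow_zero, pow_one]⟩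
      rw [pow_succ, pow_mul, hN' x hx, one_pow]
  rw [supersol_iff]
  have := hup N
  rwa [htop] at this

end Cfsg.Agent.Lib.FusionSupersol
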