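import Cfsg.Agent.Lib.FusionUniqAbel

/-! Abelian essential subgroups `Z(S)⟨x⟩` over a `p`-group with an abelian subgroup of index `p`. -/

set_option autoImplicit false

namespace Cfsg.Agent.Lib.FusionUniqAbel

open Cfsg Cfsg.FusionSystem
open Cfsg.Agent.Lib.FusionBasic Cfsg.Agent.Lib.FusionSat Cfsg.Agent.Lib.FusionNormal Cfsg.Agent.Lib.FusionAlperin
open Cfsg.Agent.Lib.EssTransv

variable {Ω : Type*} [Group Ω] {S : Subgroup Ω} {F : FusionSystem S} {p : ℕ} {A E : Subgroup Ω}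

theorem ZS_le_of_centric {P : Subgroup Ω} (hP : F.IsCentric P) : ZS S ≤ P := by
  intro z hz
  refine hP.2 P (isConj_refl F hP.1) (mem_centralizerIn.2 ⟨(mem_ZS.1 hz).1, ?_⟩)
  rw [Subgroup.mem_centralizer_iff]
  exact fun x hx => (mem_ZS.1 hz).2 x (hP.1 hx)

theorem Setup.not_le (h : Setup p S A) (hE : F.IsEssential p E) (hEA : E ≠ A) : ∃ x ∈ E, x ∉ A := by
  by_contra hcon
  push Not at hcon
  apply hEA
  refine le_antisymm hcon fun a ha => ?_
  refine hE.1.2 E (isConj_refl F hE.1.1) (mem_centralizerIn.2 ⟨h.hA ha, ?_⟩)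
  rw [Subgroup.mem_centralizer_iff]
  exact fun x hx => h.hab x (hcon x hx) a ha

theorem Setup.inter (h : Setup p S A) (hE : F.IsEssential p E) (hEA : E ≠ A) (hab : ∀ x ∈ E, ∀ y ∈ E, x * y = y * x) {y : Ω}
    (hy : y ∈ E) (hyA : y ∈ A) : y ∈ ZS S := by
  obtain ⟨x, hx, hxA⟩ := h.not_le hE hEA
  exact h.central_of hyA (hE.1.1 hx) hxA (hab x hx y hy)

theorem Setup.index_E (h : Setup p S A) (hE : F.IsEssential p E) (hEA : E ≠ A) (hab : ∀ x ∈ E, ∀ y ∈ E, x * y = y * x) :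
    ((ZS S).subgroupOf E).index = p := by
  have h1 : (ZS S).subgroupOf E = A.subgroupOf E := by
    ext y
    rw [Subgroup.mem_subgroupOf, Subgroup.mem_subgroupOf]
    exact ⟨fun hy => h.ZS_le hy, fun hy => h.inter hE hEA hab y.2 hy⟩
  rw [h1]
  have := h.normal
  have := h.fin
  show A.relIndex E = p
  have hES := hE.1.1
  rw [← Subgroup.relIndex_subgroupOf hES]
  have h2 := Subgroup.relIndex_dvd_index_of_normal (A.subgroupOf S) (E.subgroupOf S)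
  rw [h.hi] at h2
  rcases (Nat.dvd_prime h.hp).1 h2 with h3 | h3
  · exfalso
    rw [Subgroup.relIndex_eq_one] at h3
    obtain ⟨x, hx, hxA⟩ := h.not_le hE hEA
    exact hxA (h3 (x := ⟨x, hES hx⟩) hx)
  · exact h3

theorem Setup.transvH [Finite S] [Fact p.Prime] (h : Setup p S A) (hF : F.IsSaturated p) (hp2 : p ≠ 2)
    (hE : F.IsEssential p E) (hEA : E ≠ A) (hab : ∀ x ∈ E, ∀ y ∈ E, x * y = y * x) {α : MulAut E}
    (hα : α ∈ F.autGroup E) (hαe : α ∉ extAuts F E) :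
    ∃ (a : Ω) (τ : MulAut E), a ∈ ZS S ∧ a ≠ 1 ∧ a ^ p = 1 ∧
      (∀ g ∈ normalizerIn S E, ∀ x ∈ E, x⁻¹ * (g * x * g⁻¹) ∈ Subgroup.zpowers a) ∧
      (∃ g ∈ normalizerIn S E, ∃ x ∈ E, x⁻¹ * (g * x * g⁻¹) = a) ∧ τ ∈ F.autGroup E ∧
      (∀ hz : a ∈ E, ((τ ⟨a, hz⟩ : E) : Ω) = a⁻¹) ∧
      (∀ z ∈ ZS S, ∀ hz : z ∈ E, z⁻¹ * ((τ ⟨z, hz⟩ : E) : Ω) ∈ Subgroup.zpowers a) ∧
      (∀ z ∈ ZS S, ∀ hz : z ∈ E, ((τ ⟨z, hz⟩ : E) : Ω) = z ↔ ((α⁻¹ ⟨z, hz⟩ : E) : Ω) ∈ ZS S) ∧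
      (∀ z ∈ ZS S, ∃ w ∈ ZS S, (∀ hw : w ∈ E, ((τ ⟨w, hw⟩ : E) : Ω) = w) ∧ w⁻¹ * z ∈ Subgroup.zpowers a) := by
  have hS := h.hS
  have hES := hE.1.1
  have hfE : Finite E := finite_of_le hES
  have hZE : ZS S ≤ E := ZS_le_of_centric hE.1
  letI : CommGroup E := { (inferInstance : Group E) with mul_comm := fun x y => Subtype.ext (hab x x.2 y y.2) }
  have hInn : ∀ σ ∈ Inn E, σ = 1 := by
    rintro σ ⟨g, rfl⟩
    ext x
    have : MulAut.conj g x = x := by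
      rw [MulAut.conj_apply, mul_comm g x, mul_inv_cancel_right]
    rw [this]; rfl
  have hlt := lt_normalizerIn hS le_rfl (Cfsg.Agent.Lib.FusionEss.lt_of_essential hS hF hE)
  have hmax : ∀ K : Subgroup (MulAut E), K ≤ F.autGroup E → IsPGroup p K → autInducedBy S E ≤ K → K = autInducedBy S E := by
    -- maximality
    intro K hK hKp hUK
    obtain ⟨-, R, hR⟩ := fullyAutomized_of_fullyNormalized hS hF hE.2.1
    have h1 : K.subgroupOf (F.autGroup E) = (R : Subgroup (F.autGroup E)) := by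
      refine R.is_maximal' (hKp.comap_subtype) ?_
      rw [hR]
      exact fun x hx => hUK hx
    rw [hR] at h1
    refine le_antisymm (fun κ hκ => ?_) hUK
    have h2 : (⟨κ, hK hκ⟩ : F.autGroup E) ∈ K.subgroupOf (F.autGroup E) := hκ
    rw [h1] at h2
    exact h2
  have hU1 : autInducedBy S E ≠ ⊥ := by
    -- nontrivial
    obtain ⟨t, ht, htE⟩ := SetLike.exists_of_lt hlt
    intro hbot
    have h1 := conjAut_mem_autInducedBy (K := S) ht.2 ht.1
    rw [hbot, Subgroup.mem_bot] at h1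
    apply htE
    refine hE.1.2 E (isConj_refl F hES) (mem_centralizerIn.2 ⟨ht.1, ?_⟩)
    rw [mem_centralizer_iff']
    intro x hx
    have h2 := congrArg (fun σ : MulAut E => ((σ ⟨x, hx⟩ : E) : Ω)) h1
    exact h2
  have hZf : ∀ u ∈ autInducedBy S E, ∀ z ∈ (ZS S).subgroupOf E, u z = z := by
    intro u hu z hz
    obtain ⟨g, hg, hgu⟩ := mem_autInducedBy_iff.1 hu
    refine Subtype.ext ?_
    have hgz : g * (z : Ω) = z * g := (mem_ZS.1 hz).2 g hg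
    rw [hgu, hgz, mul_inv_cancel_right]
  have hZd : ∀ u ∈ autInducedBy S E, ∀ x : E, del u x ∈ (ZS S).subgroupOf E := by
    intro u hu x
    obtain ⟨g, hg, hgu⟩ := mem_autInducedBy_iff.1 hu
    rw [Subgroup.mem_subgroupOf]
    refine h.inter hE hEA hab (Subtype.coe_prop _) ?_
    rw [del_apply, Subgroup.coe_mul, hgu]
    exact h.comm_mem (hES x.2) hg
  have hdis : ∀ u ∈ autInducedBy S E, ∀ v ∈ autInducedBy S E, u = α * v * α⁻¹ → u = 1 := by
    intro u hu v hv huv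
    by_contra hu1
    exact hαe (mem_extAuts_of_conj hS hF hE hα hu hv huv (fun hi => hu1 (hInn u hi)))
  obtain ⟨a, haZ, ha1, hap, h1, ⟨u, hu, x, hx⟩, τ, hτ, h2, h3, h4, h5⟩ := transv (X := E) (p := p) hp2
    (A := F.autGroup E) (U := autInducedBy S E) (autInducedBy_le_autGroup hES le_rfl) hmax (isPGroup_autInducedBy hS le_rfl)
    hU1 (Z := (ZS S).subgroupOf E) (h.index_E hE hEA hab) hZf hZd hα hdis
  have hconj : ∀ (g : Ω) (hg : g ∈ normalizerIn S E) (x : Ω) (hx : x ∈ E),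
      ((del (conjAut E g hg.2) ⟨x, hx⟩ : E) : Ω) = x⁻¹ * (g * x * g⁻¹) := fun g hg x hx => by
    rw [del_apply]; rfl
  have hzp : ∀ c : E, c ∈ Subgroup.zpowers a → (c : Ω) ∈ Subgroup.zpowers (a : Ω) := by
    intro c hc
    obtain ⟨i, rfl⟩ := Subgroup.mem_zpowers_iff.1 hc
    exact Subgroup.mem_zpowers_iff.2 ⟨i, rfl⟩
  refine ⟨a, τ, haZ, fun e => ha1 (Subtype.ext e), congrArg Subtype.val hap, ?_, ?_, hτ, ?_, ?_, ?_, ?_⟩
  · intro g hg x hx
    rw [← hconj g hg x hx]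
    exact hzp _ (h1 _ (conjAut_mem_autInducedBy hg.2 hg.1) _)
  · obtain ⟨g, hg, hgu⟩ := mem_autInducedBy_iff.1 hu
    have hgn := mem_normalizer_of_aut hgu
    refine ⟨g, ⟨hg, hgn⟩, x, x.2, ?_⟩
    rw [← hx, del_apply, ← hgu]; rfl
  · intro hz
    exact congrArg Subtype.val h2
  · intro z hz hzE
    exact hzp _ (h3 ⟨z, hzE⟩ hz)
  · intro z hz hzE
    have := h4 ⟨z, hzE⟩ hz
    rw [Subtype.ext_iff] at this
    exact this
  · intro z hz
    obtain ⟨w, hw, hw1, hw2⟩ := h5 ⟨z, hZE hz⟩ hz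
    refine ⟨w, hw, fun _ => congrArg Subtype.val hw1, hzp _ hw2⟩

/-- elements of `Z(S)` that are commutators `[e, y]` with `e ∉ A`, `y ∈ A` -/
def Z0 (S A : Subgroup Ω) : Set Ω := {z | z ∈ ZS S ∧ ∃ e ∈ S, e ∉ A ∧ ∃ y ∈ A, z = e⁻¹ * (y * e * y⁻¹)}

/-- `k` is "the reflection of `Z(S)` with respect to `a`" -/
structure Refl (F : FusionSystem S) (p : ℕ) (A : Subgroup Ω) (a : Ω) (k : Ω → Ω) : Prop where
  iso : FIso F S S k
  mem : a ∈ ZS S
  ne : a ≠ 1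
  pow : a ^ p = 1
  le : ∀ z ∈ Z0 S A, z ∈ Subgroup.zpowers a
  mem0 : a ∈ Z0 S A
  inv : k a = a⁻¹
  del : ∀ z ∈ ZS S, z⁻¹ * k z ∈ Subgroup.zpowers a

theorem pow_conj_pow {e y a : Ω} (h : e⁻¹ * y * e = a * y) (hc1 : e * a = a * e) (j : ℕ) :
    (e ^ j)⁻¹ * y * e ^ j = a ^ j * y := by
  induction j with
  | zero => simp
  | succ j ih =>
    have h1 : e⁻¹ * a ^ j * e = a ^ j := by
      have : Commute e (a ^ j) := (show Commute e a from hc1).pow_right j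
      rw [mul_assoc, ← this.eq, inv_mul_cancel_left]
    calc (e ^ (j + 1))⁻¹ * y * e ^ (j + 1) = e⁻¹ * ((e ^ j)⁻¹ * y * e ^ j) * e := by rw [pow_succ]; group
      _ = e⁻¹ * (a ^ j * y) * e := by rw [ih]
      _ = (e⁻¹ * a ^ j * e) * (e⁻¹ * y * e) := by group
      _ = a ^ j * (a * y) := by rw [h1, h]
      _ = a ^ (j + 1) * y := by rw [pow_succ, mul_assoc]

theorem Setup.refl [Finite S] [Fact p.Prime] (h : Setup p S A) (hF : F.IsSaturated p) (hp2 : p ≠ 2)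
    (hE : F.IsEssential p E) (hEA : E ≠ A) (hab : ∀ x ∈ E, ∀ y ∈ E, x * y = y * x) {α : MulAut E}
    (hα : α ∈ F.autGroup E) (hαe : α ∉ extAuts F E) :
    ∃ (a : Ω) (k : Ω → Ω), Refl F p A a k ∧
      (∀ z ∈ ZS S, ∀ hz : z ∈ E, k z = z ↔ ((α⁻¹ ⟨z, hz⟩ : E) : Ω) ∈ ZS S) ∧
      (∀ z ∈ ZS S, ∃ w ∈ ZS S, k w = w ∧ w⁻¹ * z ∈ Subgroup.zpowers a) := by
  have hS := h.hS
  have hES := hE.1.1
  have hfE : Finite E := finite_of_le hES
  have hZE : ZS S ≤ E := ZS_le_of_centric hE.1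
  obtain ⟨a, τ, haZ, ha1, hap, h1, h2, hτ, hτa, h3, h4, h5⟩ := h.transvH hF hp2 hE hEA hab hα hαe
  have hord : orderOf a = p := orderOf_eq_prime hap ha1
  -- automorphisms not in extAuts move Z
  have hmove : ∀ β ∈ F.autGroup E, β ∉ extAuts F E → ∃ z, ∃ hz : z ∈ ZS S, ((β⁻¹ ⟨z, hZE hz⟩ : E) : Ω) ∉ ZS S := by
    intro β hβ hβe
    obtain ⟨b, σ, hbZ, hb1, hbp, -, -, hσ, hσb, -, h4', -⟩ := h.transvH hF hp2 hE hEA hab hβ hβe
    refine ⟨b, hbZ, fun hmem => ?_⟩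
    have h6 := (h4' b hbZ (hZE hbZ)).2 hmem
    rw [hσb] at h6
    have hb2 : b ^ 2 = 1 := by rw [pow_two]; nth_rw 1 [← h6]; exact inv_mul_cancel b
    have h7 : Nat.Coprime 2 p := (Nat.coprime_primes Nat.prime_two Fact.out).2 (Ne.symm hp2)
    have h8 := Nat.dvd_gcd (orderOf_dvd_of_pow_eq_one hb2) (orderOf_dvd_of_pow_eq_one hbp)
    rw [h7.gcd_eq_one] at h8
    exact hb1 (orderOf_eq_one_iff.1 (Nat.dvd_one.1 h8))
  have hτe : τ ∈ extAuts F E := by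
    by_contra hcon
    obtain ⟨z, hz, h6⟩ := hmove τ⁻¹ ((F.autGroup E).inv_mem hτ) (fun hh => hcon (by
      have := (extAuts F E).inv_mem hh; rwa [inv_inv] at this))
    apply h6
    rw [inv_inv]
    have h7 := (Subgroup.zpowers_le.2 haZ) (h3 z hz (hZE hz))
    have h8 := (ZS S).mul_mem hz h7
    rwa [mul_inv_cancel_left] at h8
  -- extendable automorphisms lie in BZ
  have hBZ : extAuts F E ≤ BZ F E hZE := by
    unfold extAuts
    rw [Subgroup.closure_le]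
    rintro β ⟨T, f, hET, hf, hfβ⟩
    obtain ⟨t, ht, htE⟩ := SetLike.exists_of_lt hET
    obtain ⟨k, hk, hfk⟩ := h.extends_ZS hF T f hf (hZE.trans hET.le) (by
      by_contra hcon
      push Not at hcon
      apply htE
      refine hE.1.2 E (isConj_refl F hES) (mem_centralizerIn.2 ⟨hf.le ht, ?_⟩)
      rw [Subgroup.mem_centralizer_iff]
      exact fun x hx => hcon x (hET.le hx) t ht)
    exact ⟨k, hk, fun z hz => by rw [← hfβ ⟨z, hZE hz⟩]; exact hfk z hz⟩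
  obtain ⟨k, hk, hkτ⟩ := hBZ hτe
  have hmem0 : a ∈ Z0 S A := by
    obtain ⟨g, hg, e, he, hge⟩ := h2
    have heA : e ∉ A := by
      intro heA
      have h6 := h.inter hE hEA hab he heA
      apply ha1
      rw [← hge, (mem_ZS.1 h6).2 g hg.1]
      group
    obtain ⟨i, hi⟩ := h.exists_zpow (hES he) heA hg.1
    refine ⟨haZ, e, hES he, heA, g * e ^ i, hi, ?_⟩
    rw [← hge]
    have h7 : e ^ i * e * (e ^ i)⁻¹ = e := by
      rw [(Commute.refl e).zpow_left i |>.eq, mul_inv_cancel_right]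
    calc e⁻¹ * (g * e * g⁻¹) = e⁻¹ * (g * (e ^ i * e * (e ^ i)⁻¹) * g⁻¹) := by rw [h7]
      _ = e⁻¹ * (g * e ^ i * e * (g * e ^ i)⁻¹) := by group
  have hle0 : ∀ z ∈ Z0 S A, z ∈ Subgroup.zpowers a := by
    rintro z ⟨hz, e', he', he'A, y, hy, hzy⟩
    obtain ⟨e, he, heA⟩ := h.not_le hE hEA
    have heS := hES he
    -- e ∈ e'^j A
    have hn := h.normal
    have hc : Nat.card (S ⧸ A.subgroupOf S) = p := h.hi
    have h6 : ((⟨e', he'⟩ : S) : S ⧸ A.subgroupOf S) ≠ 1 := by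
      rw [Ne, QuotientGroup.eq_one_iff]; exact he'A
    have h7 := mem_zpowers_of_prime_card hc (g' := ((⟨e, heS⟩ : S) : S ⧸ A.subgroupOf S)) h6
    have : Finite (S ⧸ A.subgroupOf S) := inferInstance
    obtain ⟨j, hj⟩ := mem_powers_iff_mem_zpowers.2 h7
    have hj' : ((⟨e', he'⟩ : S) : S ⧸ A.subgroupOf S) ^ j = ((⟨e, heS⟩ : S) : S ⧸ A.subgroupOf S) := hj
    have hb : (e' ^ j)⁻¹ * e ∈ A := by
      rw [← QuotientGroup.mk_pow, QuotientGroup.eq] at hj'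
      exact hj'
    have hjp : ¬ p ∣ j := by
      rintro ⟨i, rfl⟩
      have h8 : ((⟨e', he'⟩ : S) : S ⧸ A.subgroupOf S) ^ (p * i) = 1 := by
        rw [pow_mul, ← hc, pow_card_eq_one', one_pow]
      rw [h8] at hj'
      exact heA ((QuotientGroup.eq_one_iff (N := A.subgroupOf S) (⟨e, heS⟩ : S)).1 hj'.symm)
    have hzc := (mem_ZS.1 hz).2
    have h8 : e'⁻¹ * y * e' = z * y := by rw [hzy]; group
    have h9 := pow_conj_pow h8 (hzc e' he') j
    have h10 : e⁻¹ * y * e = z ^ j * y := by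
      set b := (e' ^ j)⁻¹ * e with hbdef
      have he : e = e' ^ j * b := by rw [hbdef]; group
      have hby : b⁻¹ * y * b = y := by rw [mul_assoc, h.hab y hy b hb, inv_mul_cancel_left]
      have hbz : b⁻¹ * z ^ j * b = z ^ j := by
        have h11 : b * z ^ j = z ^ j * b := (mem_ZS.1 ((ZS S).pow_mem hz j)).2 b (h.hA hb)
        rw [mul_assoc, ← h11, inv_mul_cancel_left]
      calc e⁻¹ * y * e = b⁻¹ * ((e' ^ j)⁻¹ * y * e' ^ j) * b := by rw [he]; group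
        _ = b⁻¹ * (z ^ j * y) * b := by rw [h9]
        _ = (b⁻¹ * z ^ j * b) * (b⁻¹ * y * b) := by group
        _ = z ^ j * y := by rw [hbz, hby]
    have h11 : e⁻¹ * (y * e * y⁻¹) = z ^ j := by
      calc e⁻¹ * (y * e * y⁻¹) = (e⁻¹ * y * e) * y⁻¹ := by group
        _ = z ^ j := by rw [h10, mul_inv_cancel_right]
    have hyn : y ∈ normalizerIn S E := by
      refine ⟨h.hA hy, ?_⟩
      have hyE : ∀ c ∈ E, y * c * y⁻¹ ∈ E := by
        intro c hc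
        obtain ⟨i, hi⟩ := h.exists_zpow heS heA (hES hc)
        have h12 : c * e ^ i ∈ ZS S := h.inter hE hEA hab (E.mul_mem hc (E.zpow_mem he i)) hi
        have h13 : y * e * y⁻¹ = e * z ^ j := by rw [← h11, mul_inv_cancel_left]
        have h14 : y * c * y⁻¹ = (c * e ^ i) * ((e * z ^ j) ^ i)⁻¹ := by
          rw [← h13]
          have h15 := (mem_ZS.1 h12).2 y (h.hA hy)
          have h16 : (y * e * y⁻¹) ^ i = y * e ^ i * y⁻¹ := by
            rw [← MulAut.conj_apply, ← map_zpow, MulAut.conj_apply]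
          rw [h16]
          calc y * c * y⁻¹ = y * (c * e ^ i) * (e ^ i)⁻¹ * y⁻¹ := by group
            _ = (c * e ^ i) * y * (e ^ i)⁻¹ * y⁻¹ := by rw [h15]
            _ = (c * e ^ i) * (y * e ^ i * y⁻¹)⁻¹ := by group
        rw [h14]
        exact E.mul_mem (hZE h12) (E.inv_mem (E.zpow_mem (E.mul_mem he (E.pow_mem (hZE hz) j)) i))
      have : Finite (E : Set Ω) := hfE
      exact Subgroup.mem_normalizer_fintype hyE
    have h12 := h1 y hyn e he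
    rw [h11] at h12
    -- z ∈ ⟨z^j⟩
    obtain ⟨m, hm⟩ := hS ⟨z, (mem_ZS.1 hz).1⟩
    have hm' : z ^ p ^ m = 1 := congrArg Subtype.val hm
    have hcop : Nat.Coprime (orderOf z) j := by
      refine Nat.Coprime.coprime_dvd_left (orderOf_dvd_of_pow_eq_one hm') ?_
      exact Nat.Coprime.pow_left _ ((Nat.Prime.coprime_iff_not_dvd Fact.out).2 hjp)
    have h13 : z ∈ Subgroup.zpowers (z ^ j) := by
      obtain ⟨r, hr⟩ := exists_pow_eq_self_of_coprime hcop.symm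
      have h14 := Subgroup.pow_mem _ (Subgroup.mem_zpowers (z ^ j)) r
      rwa [hr] at h14
    exact (Subgroup.zpowers_le.2 h12) h13
  refine ⟨a, k, ⟨hk, haZ, ha1, hap, hle0, hmem0, ?_, ?_⟩, ?_, ?_⟩
  · rw [← hkτ a haZ]; exact hτa _
  · intro z hz
    rw [← hkτ z hz]; exact h3 z hz _
  · intro z hz hzE
    rw [← hkτ z hz]; exact h4 z hz hzE
  · intro z hz
    obtain ⟨w, hw, hw1, hw2⟩ := h5 z hz
    exact ⟨w, hw, by rw [← hkτ w hw]; exact hw1 _, hw2⟩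

end Cfsg.Agent.Lib.FusionUniqAbel
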