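import Cfsg.Agent.Lib.FusionUniqAbel2

/-! Fusion systems with `O_p(F) = 1` over a nonabelian `p`-group with a unique abelian subgroup of index `p`, which is
not essential: the centre has order `p`. -/

set_option autoImplicit false

namespace Cfsg.Agent.Lib.FusionUniqAbel

open Cfsg Cfsg.FusionSystem
open Cfsg.Agent.Lib.FusionBasic Cfsg.Agent.Lib.FusionSat Cfsg.Agent.Lib.FusionNormal Cfsg.Agent.Lib.FusionAlperin
open Cfsg.Agent.Lib.EssTransv

variable {Ω : Type*} [Group Ω] {S : Subgroup Ω} {F : FusionSystem S} {p : ℕ} {A E : Subgroup Ω}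

/-- an automorphism of `S` in the system whose `p`-th power is trivial on `Z(S)` is trivial on `Z(S)` -/
theorem eq_of_pow [Finite S] [hp : Fact p.Prime] (hS : IsPGroup p S) (hF : F.IsSaturated p) {κ : MulAut S}
    (hκ : κ ∈ F.autGroup S) (hz : ∀ (z : Ω) (hz : z ∈ ZS S), (κ ^ p) ⟨z, hz.1⟩ = ⟨z, hz.1⟩) :
    ∀ (z : Ω) (hz : z ∈ ZS S), κ ⟨z, hz.1⟩ = ⟨z, hz.1⟩ := by
  have hinv : ∀ α ∈ F.autGroup S, ∀ (z : Ω) (hz : z ∈ ZS S), ((α ⟨z, hz.1⟩ : S) : Ω) ∈ ZS S := by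
    intro α hα z hz
    obtain ⟨f, hf, hfα⟩ := exists_fmap_of_aut le_rfl hα
    rw [← hfα]; exact fiso_ZS hf hz
  let K : Subgroup (F.autGroup S) :=
    { carrier := {α | ∀ (z : Ω) (hz : z ∈ ZS S), (α : MulAut S) ⟨z, hz.1⟩ = ⟨z, hz.1⟩}
      one_mem' := fun _ _ => rfl
      mul_mem' := fun {α β} hα hβ z hz => by
        show (α : MulAut S) ((β : MulAut S) _) = _
        rw [hβ z hz, hα z hz]
      inv_mem' := fun {α} hα z hz => by
        show (α : MulAut S)⁻¹ _ = _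
        conv_lhs => rw [← hα z hz]
        exact MulAut.inv_apply_self _ _ _ }
  have hKn : K.Normal := by
    refine ⟨fun κ hκ α z hz => ?_⟩
    show (α : MulAut S) ((κ : MulAut S) ((α : MulAut S)⁻¹ ⟨z, hz.1⟩)) = _
    have h1 := hinv _ ((F.autGroup S).inv_mem α.2) z hz
    have h2 : (κ : MulAut S) ((α : MulAut S)⁻¹ ⟨z, hz.1⟩) = (α : MulAut S)⁻¹ ⟨z, hz.1⟩ := hκ _ h1
    rw [h2, MulAut.apply_inv_self]
  obtain ⟨-, R, hR⟩ := fullyAutomized_of_fullyNormalized hS hF (isFullyNormalized_top F)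
  have hRK : (R : Subgroup (F.autGroup S)) ≤ K := by
    rw [hR]
    intro α hα z hz
    obtain ⟨g, hg, hgα⟩ := mem_autInducedBy_iff.1 (show (α : MulAut S) ∈ autInducedBy S S from hα)
    refine Subtype.ext ?_
    have hgz : g * z = z * g := (mem_ZS.1 hz).2 g hg
    rw [hgα]
    show g * z * g⁻¹ = z
    rw [hgz, mul_inv_cancel_right]
  have hnd : ¬ p ∣ K.index := by
    intro hd
    exact R.not_dvd_index (hd.trans (Subgroup.index_dvd_of_le hRK))
  have h1 : ((⟨κ, hκ⟩ : F.autGroup S) : (F.autGroup S) ⧸ K) ^ p = 1 := by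
    rw [← QuotientGroup.mk_pow, QuotientGroup.eq_one_iff]
    exact fun z hz' => hz z hz'
  have h2 : ((⟨κ, hκ⟩ : F.autGroup S) : (F.autGroup S) ⧸ K) = 1 := by
    have h3 := orderOf_dvd_of_pow_eq_one h1
    rcases (Nat.dvd_prime hp.out).1 h3 with h4 | h4
    · exact orderOf_eq_one_iff.1 h4
    · exfalso
      apply hnd
      have h5 := orderOf_dvd_natCard ((⟨κ, hκ⟩ : F.autGroup S) : (F.autGroup S) ⧸ K)
      rw [h4] at h5
      exact h5
  rw [QuotientGroup.eq_one_iff] at h2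
  exact fun z hz => h2 z hz

/-- two reflections of `Z(S)` with the same centre agree on `Z(S)` -/
theorem refl_unique [Finite S] [hp : Fact p.Prime] (hS : IsPGroup p S) (hF : F.IsSaturated p) {a : Ω} (ha : a ∈ ZS S)
    (hap : a ^ p = 1) {k l : Ω → Ω} (hk : FIso F S S k) (hl : FIso F S S l)
    (hka : k a = a⁻¹) (hla : l a = a⁻¹) (hkz : ∀ z ∈ ZS S, z⁻¹ * k z ∈ Subgroup.zpowers a)
    (hlz : ∀ z ∈ ZS S, z⁻¹ * l z ∈ Subgroup.zpowers a) : ∀ z ∈ ZS S, k z = l z := by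
  have hZcomm : ∀ x ∈ ZS S, ∀ y ∈ ZS S, x * y = y * x := fun x hx y hy => (mem_ZS.1 hy).2 x (mem_ZS.1 hx).1
  have hkc : ∀ c ∈ Subgroup.zpowers a, k c = c⁻¹ := by
    intro c hc
    obtain ⟨i, rfl⟩ := Subgroup.mem_zpowers_iff.1 hc
    rw [hk.1.map_zpow (mem_ZS.1 ha).1, hka, inv_zpow]
  have hlc : ∀ c ∈ Subgroup.zpowers a, l c = c⁻¹ := by
    intro c hc
    obtain ⟨i, rfl⟩ := Subgroup.mem_zpowers_iff.1 hc
    rw [hl.1.map_zpow (mem_ZS.1 ha).1, hla, inv_zpow]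
  have haZ : Subgroup.zpowers a ≤ ZS S := Subgroup.zpowers_le.2 ha
  -- l (k z) : product of the two
  have hm : FIso F S S (fun x => l (k x)) := hk.trans hl
  obtain ⟨κ, hκ, hκm⟩ := exists_aut_of_fmap hm.1 (fun x hx => hm.mem hx)
  have hκz : ∀ (z : Ω) (hz : z ∈ ZS S), ∃ c ∈ Subgroup.zpowers a, l (k z) = z * c ∧ (z⁻¹ * k z)⁻¹ * (z⁻¹ * l z) = c := by
    intro z hz
    set c := z⁻¹ * k z with hc
    set d := z⁻¹ * l z with hd
    have h1 : k z = z * c := by rw [hc, mul_inv_cancel_left]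
    have h2 : l z = z * d := by rw [hd, mul_inv_cancel_left]
    have hcZ : c ∈ Subgroup.zpowers a := hkz z hz
    have hdZ : d ∈ Subgroup.zpowers a := hlz z hz
    refine ⟨c⁻¹ * d, Subgroup.mul_mem _ (Subgroup.inv_mem _ hcZ) hdZ, ?_, rfl⟩
    rw [h1, hl.1.map_mul (mem_ZS.1 hz).1 (mem_ZS.1 (haZ hcZ)).1, h2, hlc c hcZ, mul_assoc,
      hZcomm d (haZ hdZ) _ ((ZS S).inv_mem (haZ hcZ))]
  have hfix : ∀ c ∈ Subgroup.zpowers a, l (k c) = c := by
    intro c hc
    rw [hkc c hc, hlc _ (Subgroup.inv_mem _ hc), inv_inv]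
  have hpow : ∀ (n : ℕ) (z : Ω) (hz : z ∈ ZS S), (((κ ^ n) ⟨z, hz.1⟩ : S) : Ω) = z * (((z⁻¹ * k z)⁻¹ * (z⁻¹ * l z)) ^ n) := by
    intro n
    induction n with
    | zero => intro z hz; simp
    | succ n ih =>
      intro z hz
      obtain ⟨c, hc, h1, h2⟩ := hκz z hz
      have hcn : c ^ n ∈ Subgroup.zpowers a := Subgroup.pow_mem _ hc n
      have h3 : (κ ^ n) ⟨z, hz.1⟩ = ⟨z * c ^ n, S.mul_mem hz.1 (mem_ZS.1 (haZ hcn)).1⟩ := by
        refine Subtype.ext ?_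
        rw [ih z hz, h2]
      rw [pow_succ', MulAut.mul_apply, h3, hκm]
      show l (k (z * c ^ n)) = _
      rw [hm.1.map_mul (mem_ZS.1 hz).1 (mem_ZS.1 (haZ hcn)).1, h1, hfix _ hcn, h2, mul_assoc, ← pow_succ']
  have hκ1 := eq_of_pow hS hF hκ (fun z hz => by
    refine Subtype.ext ?_
    obtain ⟨c, hc, h1, h2⟩ := hκz z hz
    rw [hpow p z hz, h2]
    obtain ⟨i, rfl⟩ := Subgroup.mem_zpowers_iff.1 hc
    rw [← zpow_natCast, zpow_comm, zpow_natCast, hap, one_zpow, mul_one])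
  intro z hz
  obtain ⟨c, hc, h1, h2⟩ := hκz z hz
  have h3 := congrArg Subtype.val (hκ1 z hz)
  rw [hκm] at h3
  have h4 : z * c = z := h1.symm.trans h3
  have hc1 : c = 1 := mul_left_cancel (h4.trans (mul_one z).symm)
  rw [hc1, inv_mul_eq_one] at h2
  exact mul_left_cancel h2

/-- `k(A) = A` -/
theorem Setup.map_A (h : Setup p S A) (huniq : ∀ B : Subgroup Ω, B ≤ S → (∀ x ∈ B, ∀ y ∈ B, x * y = y * x) →
    (B.subgroupOf S).index = p → B = A) {k : Ω → Ω} (hk : FIso F S S k) : FIso F A A k := by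
  have := h.fin
  have hkA := hk.1.restrict h.hA
  obtain ⟨B, hB⟩ := hkA.exists_iso
  have hBA : B = A := by
    refine huniq B hB.le_right ?_ ?_
    · intro x hx y hy
      obtain ⟨a, ha, rfl⟩ := hB.mem_iff.1 hx
      obtain ⟨b, hb, rfl⟩ := hB.mem_iff.1 hy
      rw [← hkA.map_mul ha hb, ← hkA.map_mul hb ha, h.hab a ha b hb]
    · rw [← h.hi]
      have h1 := (A.subgroupOf S).index_mul_card
      have h2 := (B.subgroupOf S).index_mul_card
      have h3 : Nat.card (A.subgroupOf S) = Nat.card A := Nat.card_congr (Subgroup.subgroupOfEquivOfLe h.hA).toEquiv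
      have h4 : Nat.card (B.subgroupOf S) = Nat.card B := Nat.card_congr (Subgroup.subgroupOfEquivOfLe hB.le_right).toEquiv
      rw [h3] at h1
      rw [h4, ← hB.card_eq] at h2
      have hfA : Finite A := finite_of_le h.hA
      exact Nat.eq_of_mul_eq_mul_right Nat.card_pos (h2.trans h1.symm)
  rw [hBA] at hB
  exact hB

theorem Setup.map_Z0 (h : Setup p S A) (huniq : ∀ B : Subgroup Ω, B ≤ S → (∀ x ∈ B, ∀ y ∈ B, x * y = y * x) →
    (B.subgroupOf S).index = p → B = A) {k : Ω → Ω} (hk : FIso F S S k) {z : Ω} (hz : z ∈ Z0 S A) : k z ∈ Z0 S A := by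
  obtain ⟨hz, e, he, heA, y, hy, rfl⟩ := hz
  have hkA := h.map_A huniq hk
  refine ⟨fiso_ZS hk hz, k e, hk.mem he, fun hA => heA ?_, k y, hkA.mem hy, ?_⟩
  · exact hkA.mem_of_map_mem hk.1 h.hA he hA
  · have hyS := h.hA hy
    rw [hk.1.map_mul (S.inv_mem he) (S.mul_mem (S.mul_mem hyS he) (S.inv_mem hyS)), hk.1.map_inv he, hk.1.map_conj hyS he]

variable [Finite S] [hp : Fact p.Prime]

theorem main (h : Setup p S A) (huniq : ∀ B : Subgroup Ω, B ≤ S → (∀ x ∈ B, ∀ y ∈ B, x * y = y * x) →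
    (B.subgroupOf S).index = p → B = A) (hF : F.IsSaturated p) (hp2 : p ≠ 2) (hcore : F.core = ⊥)
    (hAe : ¬ F.IsEssential p A) : ∃ E : Subgroup Ω, F.IsEssential p E ∧ (∀ x ∈ E, ∀ y ∈ E, x * y = y * x) ∧
      ∃ a, a ∈ Z0 S A ∧ a ^ p = 1 ∧ a ≠ 1 ∧ ZS S = Subgroup.zpowers a := by
  have hS := h.hS
  have hnormal : ∀ W : Subgroup Ω, F.IsNormal W → W = ⊥ := fun W hW => by
    rw [eq_bot_iff, ← hcore]; exact le_sSup hW
  have hZne : ZS S ≠ ⊥ := by
    have hnt : Nontrivial S := by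
      obtain ⟨x, hx, y, hy, hxy⟩ := h.hna
      refine ⟨⟨x, hx⟩, ⟨y, hy⟩, fun e => hxy ?_⟩
      have h1 : x = y := congrArg Subtype.val e
      rw [h1]
    have h1 := hS.bot_lt_center
    intro hbot
    obtain ⟨z, hz, hz1⟩ := SetLike.exists_of_lt h1
    apply hz1
    have h2 : (z : Ω) ∈ ZS S := mem_ZS.2 ⟨z.2, fun s hs => congrArg Subtype.val (Subgroup.mem_center_iff.1 hz ⟨s, hs⟩)⟩
    rw [hbot, Subgroup.mem_bot] at h2
    exact Subgroup.mem_bot.2 (Subtype.ext h2)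
  -- nonabelian essential subgroups and `S`
  have hnon : ∀ P : Subgroup Ω, (P = S ∨ F.IsEssential p P) → ZS S ≤ P := by
    rintro P (rfl | hP)
    · exact inf_le_left
    · exact ZS_le_of_centric hP.1
  -- existence of an abelian one
  obtain ⟨E, hE, hab⟩ : ∃ E, F.IsEssential p E ∧ ∀ x ∈ E, ∀ y ∈ E, x * y = y * x := by
    by_contra hcon
    push Not at hcon
    apply hZne
    refine hnormal _ (isNormal_of_essential hS hF fun P hP => ⟨hnon P hP, fun a ha x hx => ?_⟩)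
    refine (h.map_ZS ha.1 (hnon P hP) ?_).1 x hx
    rcases hP with rfl | hP
    · exact h.hna
    · exact hcon P hP
  have hne : ∀ E, F.IsEssential p E → E ≠ A := fun E hE e => hAe (e ▸ hE)
  have hexα : ∀ E, F.IsEssential p E → ∃ α ∈ F.autGroup E, α ∉ extAuts F E := by
    intro E hE
    have h1 := extAuts_ne_of_essential hS hF (Cfsg.Agent.Lib.FusionEss.lt_of_essential hS hF hE) hE
    have h2 : extAuts F E < F.autGroup E := lt_of_le_of_ne extAuts_le h1
    exact SetLike.exists_of_lt h2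
  obtain ⟨α, hα, hαe⟩ := hexα E hE
  obtain ⟨a, k, hR, h1, h2⟩ := h.refl hF hp2 hE (hne E hE) hab hα hαe
  have hkcomm : ∀ (b : Ω) (l : Ω → Ω), Refl F p A b l → ∀ z ∈ ZS S, l z = k z := by
    intro b l hb
    have hba : b ∈ Subgroup.zpowers a := hR.le b hb.mem0
    have hab' : a ∈ Subgroup.zpowers b := hb.le a hR.mem0
    refine refl_unique hS hF hR.mem hR.pow hb.iso hR.iso ?_ hR.inv ?_ hR.del
    · obtain ⟨i, hi⟩ := Subgroup.mem_zpowers_iff.1 hab'
      rw [← hi, hb.iso.1.map_zpow (mem_ZS.1 hb.mem).1, hb.inv, inv_zpow]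
    · intro z hz
      exact (Subgroup.zpowers_le.2 hba) (hb.del z hz)
  -- the subgroup W
  let W : Subgroup Ω :=
    { carrier := {z | z ∈ ZS S ∧ k z = z}
      one_mem' := ⟨(ZS S).one_mem, hR.iso.1.map_one⟩
      mul_mem' := by
        rintro x y ⟨hx, hx'⟩ ⟨hy, hy'⟩
        exact ⟨(ZS S).mul_mem hx hy, by rw [hR.iso.1.map_mul (mem_ZS.1 hx).1 (mem_ZS.1 hy).1, hx', hy']⟩
      inv_mem' := by
        rintro x ⟨hx, hx'⟩
        exact ⟨(ZS S).inv_mem hx, by rw [hR.iso.1.map_inv (mem_ZS.1 hx).1, hx']⟩ }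
  have hW : ∀ z, z ∈ W ↔ z ∈ ZS S ∧ k z = z := fun _ => Iff.rfl
  -- invariance under Aut_F(S)
  have hWS : ∀ g, FIso F S S g → ∀ z ∈ W, g z ∈ W := by
    rintro g hg z ⟨hz, hkz⟩
    obtain ⟨g', hg', hg'g, hgg'⟩ := hg.symm
    have hk' : FIso F S S (fun x => g' (k (g x))) := (hg.trans hR.iso).trans hg'
    have hga : ∀ g, FIso F S S g → ∀ c ∈ Subgroup.zpowers a, g c ∈ Subgroup.zpowers a := by
      intro g hg c hc
      obtain ⟨i, rfl⟩ := Subgroup.mem_zpowers_iff.1 hc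
      rw [hg.1.map_zpow (mem_ZS.1 hR.mem).1]
      exact Subgroup.zpow_mem _ (hR.le _ (h.map_Z0 huniq hg hR.mem0)) i
    have haS : ∀ c ∈ Subgroup.zpowers a, c ∈ S := fun c hc => (Subgroup.zpowers_le.2 (mem_ZS.1 hR.mem).1) hc
    have hkc : ∀ c ∈ Subgroup.zpowers a, k c = c⁻¹ := by
      intro c hc
      obtain ⟨i, rfl⟩ := Subgroup.mem_zpowers_iff.1 hc
      rw [hR.iso.1.map_zpow (mem_ZS.1 hR.mem).1, hR.inv, inv_zpow]
    have h3 := refl_unique hS hF hR.mem hR.pow hk' hR.iso (by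
      have h4 := hga g hg a (Subgroup.mem_zpowers a)
      show g' (k (g a)) = a⁻¹
      rw [hkc _ h4, hg'.1.map_inv (haS _ h4), hg'g a (mem_ZS.1 hR.mem).1]) hR.inv (by
      intro y hy
      show y⁻¹ * g' (k (g y)) ∈ _
      have hgy := fiso_ZS hg hy
      have h4 := hga g' hg' _ (hR.del (g y) hgy)
      rw [hg'.1.map_mul (S.inv_mem (mem_ZS.1 hgy).1) (hR.iso.mem (mem_ZS.1 hgy).1), hg'.1.map_inv (mem_ZS.1 hgy).1,
        hg'g y (mem_ZS.1 hy).1] at h4
      exact h4) hR.del z hz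
    have h4 : g' (k (g z)) = z := h3.trans hkz
    refine ⟨fiso_ZS hg hz, ?_⟩
    have h5 := congrArg g h4
    rw [hgg' _ (hR.iso.mem (hg.mem (mem_ZS.1 hz).1))] at h5
    exact h5
  have hWn : F.IsNormal W := by
    refine isNormal_of_essential hS hF fun P hP => ⟨fun z hz => hnon P hP hz.1, fun f hf z hz => ?_⟩
    have hZP := hnon P hP
    rcases hP with rfl | hP
    · exact hWS f hf z hz
    · by_cases hPab : ∀ x ∈ P, ∀ y ∈ P, x * y = y * x
      · obtain ⟨β, hβ, hβf⟩ := exists_aut_of_fmap hf.1 (fun x hx => hf.mem hx)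
        by_cases hβe : β ∈ extAuts F P
        · have hBZ : extAuts F P ≤ BZ F P hZP := by
            unfold extAuts
            rw [Subgroup.closure_le]
            rintro β ⟨T, f, hET, hf, hfβ⟩
            obtain ⟨t, ht, htE⟩ := SetLike.exists_of_lt hET
            obtain ⟨k, hk, hfk⟩ := h.extends_ZS hF T f hf (hZP.trans hET.le) (by
              by_contra hcon
              push Not at hcon
              apply htE
              refine hP.1.2 P (isConj_refl F hP.1.1) (mem_centralizerIn.2 ⟨hf.le ht, ?_⟩)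
              rw [Subgroup.mem_centralizer_iff]
              exact fun x hx => hcon x (hET.le hx) t ht)
            exact ⟨k, hk, fun z hz => by rw [← hfβ ⟨z, hZP hz⟩]; exact hfk z hz⟩
          obtain ⟨g, hg, hgβ⟩ := hBZ hβe
          have h3 : f z = g z := by rw [← hgβ z hz.1, hβf]
          rw [h3]; exact hWS g hg z hz
        · have hβi := (F.autGroup P).inv_mem hβ
          have hβie : β⁻¹ ∉ extAuts F P := fun hh => hβe (by have := (extAuts F P).inv_mem hh; rwa [inv_inv] at this)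
          obtain ⟨a₁, k₁, hR₁, h₁, -⟩ := h.refl hF hp2 hP (hne P hP) hPab hβi hβie
          obtain ⟨a₂, k₂, hR₂, h₂, -⟩ := h.refl hF hp2 hP (hne P hP) hPab hβ hβe
          have h3 : f z ∈ ZS S := by
            have h4 := (h₁ z hz.1 (hZP hz.1)).1 ((hkcomm _ _ hR₁ z hz.1).trans hz.2)
            rw [inv_inv, hβf] at h4
            exact h4
          refine ⟨h3, ?_⟩
          rw [← hkcomm _ _ hR₂ _ h3]
          refine (h₂ (f z) h3 (hZP h3)).2 ?_
          have h4 : (⟨f z, hZP h3⟩ : P) = β ⟨z, hZP hz.1⟩ := Subtype.ext (hβf ⟨z, hZP hz.1⟩).symm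
          rw [h4, MulAut.inv_apply_self]
          exact hz.1
      · push Not at hPab
        obtain ⟨g, hg, hfg⟩ := h.extends_ZS hF P f hf.1 hZP hPab
        rw [hfg z hz.1]; exact hWS g hg z hz
  have hW1 := hnormal W hWn
  refine ⟨E, hE, hab, a, hR.mem0, hR.pow, hR.ne, le_antisymm (fun z hz => ?_) (Subgroup.zpowers_le.2 hR.mem)⟩
  obtain ⟨w, hw, hw1, hw2⟩ := h2 z hz
  have h3 : w ∈ W := ⟨hw, hw1⟩
  rw [hW1, Subgroup.mem_bot] at h3
  rw [h3, inv_one, one_mul] at hw2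
  exact hw2

end Cfsg.Agent.Lib.FusionUniqAbel
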