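import Mathlib
import Cfsg.Agent.Lib.FusionQuotHyp
import Cfsg.Agent.Lib.FusionInner
import Cfsg.Agent.Lib.FusionCyclic
import Cfsg.Agent.Lib.FusionSys
import Cfsg.Agent.Lib.FusionPP
import Cfsg.Agent.Lib.FusionPIdx
import Cfsg.Agent.Lib.FusionFactor
import Cfsg.Agent.Lib.FusionSolv
import Cfsg.Agent.Lib.WreathCocycle
import Cfsg.Agent.Lib.H70Frattini
import Cfsg.Agent.S5128

/-!
Weakly embedded subgroups of one order: the nilpotency criterion S5271.
-/

set_option autoImplicit false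
open Cfsg Cfsg.FusionSystem Cfsg.Agent.Lib.FusionBasic Cfsg.Agent.Lib.FusionSat Cfsg.Agent.Lib.FusionNormal
  Cfsg.Agent.Lib.FusionPP Cfsg.Agent.Lib.FusionStrong Cfsg.Agent.Lib.FusionSys Cfsg.Agent.Lib.FusionQuot
  Cfsg.Agent.Lib.FusionQuotHyp Cfsg.Agent.Lib.FusionInner Cfsg.Agent.Lib.FusionHyper Cfsg.Agent.Lib.FusionPIdx
  Cfsg.Agent.Lib.FusionFocal Cfsg.Agent.Lib.FusionSolv Cfsg.Agent.Lib.FusionCyclic

namespace Cfsg.Agent.Lib.FusionWeakEmb

universe u v
variable {Ω : Type u} [Group Ω] {S : Subgroup Ω} {F : FusionSystem S} {P Q R T M H : Subgroup Ω} {a f g : Ω → Ω} {p d : ℕ}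

/-- a `p'`-automorphism agreeing with the conjugation by an element of `S` is trivial -/
theorem pp_conj_trivial [Fact p.Prime] (hS : IsPGroup p S) (ha : PP F p M a) {s : Ω} (hs : s ∈ S)
    (h : ∀ x ∈ M, a x = s * x * s⁻¹) : ∀ x ∈ M, a x = x := by
  obtain ⟨h1, n, hn, h2⟩ := ha
  obtain ⟨k, hk⟩ := hS ⟨s, hs⟩
  have hk' : s ^ p ^ k = 1 := congrArg Subtype.val hk
  have hit : ∀ (j : ℕ), ∀ x ∈ M, a^[j] x = s ^ j * x * (s ^ j)⁻¹ := by
    intro j
    induction j with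
    | zero => intro x hx; simp
    | succ j ih =>
      intro x hx
      rw [Function.iterate_succ_apply', h _ (iter_mem h1 hx j), ih x hx, pow_succ']
      group
  intro x hx
  have hcop : n.Coprime (p ^ k) := Nat.Coprime.pow_right k ((Fact.out : p.Prime).coprime_iff_not_dvd.2 hn).symm
  have e1 : s ^ n * x * (s ^ n)⁻¹ = x := by rw [← hit n x hx]; exact h2 x hx
  have e3 : Commute (s ^ n) x := by
    show s ^ n * x = x * s ^ n
    exact mul_inv_eq_iff_eq_mul.1 e1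
  have e4 : Commute (s ^ (p ^ k)) x := by rw [hk']; exact Commute.one_left x
  have e5 : Commute (s ^ (1 : ℤ)) x := by
    have hb := Nat.gcd_eq_gcd_ab n (p ^ k)
    rw [hcop.gcd_eq_one] at hb
    have : s ^ (1 : ℤ) = (s ^ n) ^ (n.gcdA (p ^ k)) * (s ^ (p ^ k)) ^ (n.gcdB (p ^ k)) := by
      rw [← zpow_natCast s n, ← zpow_natCast s (p ^ k), ← zpow_mul, ← zpow_mul, ← zpow_add, ← hb]
      rfl
    rw [this]
    exact (e3.zpow_left _).mul_left (e4.zpow_left _)
  rw [zpow_one] at e5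
  rw [h x hx, e5.eq, mul_inv_cancel_right]

/-- the subgroup of fixed points of a map of the system -/
theorem exists_fix (ha : FMap F R a) : ∃ X : Subgroup Ω, ∀ x, x ∈ X ↔ x ∈ R ∧ a x = x := by
  refine ⟨{ carrier := {x | x ∈ R ∧ a x = x}
            one_mem' := ⟨R.one_mem, ha.map_one⟩
            mul_mem' := fun {x y} hx hy => ⟨R.mul_mem hx.1 hy.1, by rw [ha.map_mul hx.1 hy.1, hx.2, hy.2]⟩
            inv_mem' := fun {x} hx => ⟨R.inv_mem hx.1, by rw [ha.map_inv hx.1, hx.2]⟩ }, fun x => Iff.rfl⟩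

/-- Lemma 1: a `p'`-automorphism of `R` leaving invariant a subgroup `H` all whose conjugates have inner normalizer
systems is trivial. -/
theorem pp_trivial_of_inner_normalizer [Finite S] [Fact p.Prime] (hS : IsPGroup p S) (hF : F.IsSaturated p)
    (hin : ∀ H' : Subgroup Ω, F.IsFullyNormalized H' → Nat.card H' = Nat.card H →
      ∀ N : FusionSystem (normalizerIn S H'), F.IsNormalizerSystem H' N →
        ∀ P : Subgroup Ω, N.Hom P = (innerFusionSystem (normalizerIn S H')).Hom P)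
    (ha : PP F p R a) (hHR : H ≤ R) (hH : ∀ x ∈ H, a x ∈ H) : ∀ x ∈ R, a x = x := by
  have hRS := ha.le
  have hHS := hHR.trans hRS
  have hfin : Finite H := finite_of_le hHS
  have hHi : FIso F H H a := fiso_restrict ha.map hHR hH
  obtain ⟨H', f, hH', hf, hfN, hfn⟩ := exists_fullyNormalized_map hS hF hHS
  obtain ⟨M, hMd⟩ : ∃ M, M = normalizerIn R H := ⟨_, rfl⟩
  have hMR : M ≤ R := by rw [hMd]; exact normalizerIn_le R H
  have hMN : M ≤ normalizerIn S H := by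
    rw [hMd]; exact inf_le_inf_right _ hRS
  have hHM : H ≤ M := by rw [hMd]; exact le_normalizerIn hHR
  have hMn : ∀ x ∈ M, ∀ y ∈ H, x * y * x⁻¹ ∈ H := by
    intro x hx y hy
    have h1 : x ∈ Subgroup.normalizer (H : Set Ω) := (hMN hx).2
    exact (Subgroup.mem_normalizer_iff.1 h1 y).1 hy
  have hMa : ∀ x ∈ M, a x ∈ M := by
    intro x hx
    rw [hMd]
    refine ⟨ha.mem (hMR hx), ?_⟩
    refine mem_normalizer_of_forall hHS (hRS (ha.mem (hMR hx))) fun y hy => ?_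
    obtain ⟨z, hz, rfl⟩ := hHi.mem_iff.1 hy
    rw [← ha.map.map_conj (hMR hx) (hHR hz)]
    exact hH _ (hMn x hx z hz)
  have haM : PP F p M a := ha.restrict hMR hMa
  obtain ⟨M', hM'⟩ := (hfN.restrict hMN).exists_iso
  obtain ⟨k, hk, hk1, hk2⟩ := hM'.symm
  have hb := haM.transport hM' hk hk1 hk2
  have hM'N : M' ≤ normalizerIn S H' := by
    intro y hy
    obtain ⟨x, hx, rfl⟩ := hM'.mem_iff.1 hy
    exact hfn x (hMN hx)
  have hH'M' : H' ≤ M' := by
    intro y hy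
    obtain ⟨x, hx, rfl⟩ := hf.mem_iff.1 hy
    exact hM'.mem (hHM hx)
  have hbH : ∀ y ∈ H', f (a (k y)) ∈ H' := by
    intro y hy
    obtain ⟨x, hx, rfl⟩ := hf.mem_iff.1 hy
    rw [hk1 x (hHM hx)]
    exact hf.mem (hH x hx)
  have hbN : FMap (normSys F H' hH'.1) M' (fun y => f (a (k y))) := by
    rw [fmap_normSys]
    refine ⟨hM'N, fun y hy => hM'N (hb.mem hy), fun y => f (a (k y)), ?_, fun _ _ => rfl,
      fiso_restrict hb.map hH'M' hbH⟩
    rw [sup_eq_left.2 hH'M']; exact hb.map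
  obtain ⟨s, hs, h3⟩ := isInner_iff.1 (hin H' hH' hf.card_eq.symm _ isNormalizerSystem_normSys) M' _ hbN
  have h4 := pp_conj_trivial hS hb (normalizerIn_le S H' hs) h3
  have h5 : ∀ x ∈ M, a x = x := by
    intro x hx
    have h6 : f (a (k (f x))) = f x := h4 (f x) (hM'.mem hx)
    rw [hk1 x hx] at h6
    exact hM'.map.inj (hMa x hx) hx h6
  -- the fixed points
  obtain ⟨X, hX⟩ := exists_fix ha.map
  have hMX : M ≤ X := fun x hx => (hX x).2 ⟨hMR hx, h5 x hx⟩
  have hXR : X ≤ R := fun x hx => ((hX x).1 hx).1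
  by_contra hne
  have hlt : X < R := by
    refine lt_of_le_of_ne hXR fun h => hne fun x hx => ?_
    rw [← h] at hx; exact ((hX x).1 hx).2
  have hlt2 := lt_normalizerIn hS hRS hlt
  obtain ⟨y, hy, hyX⟩ := SetLike.exists_of_lt hlt2
  apply hyX
  refine (hX y).2 ⟨hy.1, ha.fix hS hXR hy.1 ?_ fun z hz => ((hX z).1 hz).2⟩
  apply hMX
  rw [hMd]
  have hyR := hy.1
  have hay := ha.mem hyR
  refine ⟨R.mul_mem (R.inv_mem hyR) hay, ?_⟩
  -- y⁻¹ a(y) centralizes H
  have hc : ∀ z ∈ H, (y⁻¹ * a y) * z * (y⁻¹ * a y)⁻¹ = z := by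
    intro z hz
    have h7 : y * z * y⁻¹ ∈ X := (Subgroup.mem_normalizer_iff.1 hy.2 z).1 (hMX (hHM hz))
    have h8 := ((hX _).1 h7).2
    rw [ha.map.map_conj hyR (hHR hz), h5 z (hHM hz)] at h8
    rw [mul_inv_rev, inv_inv]
    calc y⁻¹ * a y * z * ((a y)⁻¹ * y) = y⁻¹ * (a y * z * (a y)⁻¹) * y := by group
      _ = z := by rw [h8]; group
  refine mem_normalizer_of_forall hHS (hRS (R.mul_mem (R.inv_mem hyR) hay)) fun z hz => ?_
  rw [hc z hz]; exact hz

/-- the sup of two invariant subgroups is invariant -/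
theorem inv_sup {X Y : Subgroup Ω} (ha : FMap F R a) (hX : X ≤ R) (hY : Y ≤ R) (hXa : ∀ x ∈ X, a x ∈ X)
    (hYa : ∀ x ∈ Y, a x ∈ Y) : ∀ x ∈ X ⊔ Y, a x ∈ X ⊔ Y := by
  obtain ⟨φ, hφ, h1⟩ := ha
  have h2 : (X ⊔ Y).subgroupOf R ≤ (X ⊔ Y).comap φ := by
    rw [Subgroup.subgroupOf_sup hX hY, sup_le_iff]
    constructor
    · intro x hx
      rw [Subgroup.mem_comap, h1 x]
      exact Subgroup.mem_sup_left (hXa x hx)
    · intro x hx
      rw [Subgroup.mem_comap, h1 x]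
      exact Subgroup.mem_sup_right (hYa x hx)
  intro x hx
  have hxR : x ∈ R := (sup_le hX hY) hx
  have h3 := h2 (x := ⟨x, hxR⟩) hx
  rw [Subgroup.mem_comap, h1] at h3
  exact h3

/-- subgroups of intermediate order -/
theorem exists_between [Finite S] [Fact p.Prime] (hS : IsPGroup p S) {A B : Subgroup Ω} (hB : B ≤ S) (hAB : A ≤ B)
    (h1 : Nat.card A ≤ p ^ d) (h2 : p ^ d ≤ Nat.card B) : ∃ Q : Subgroup Ω, A ≤ Q ∧ Q ≤ B ∧ Nat.card Q = p ^ d := by
  have hp : p.Prime := Fact.out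
  have hfB : Finite B := finite_of_le hB
  have hBp := isPGroup_of_le hS hB
  have hAp := isPGroup_of_le hS (hAB.trans hB)
  have hfA : Finite A := finite_of_le (hAB.trans hB)
  obtain ⟨m, hm⟩ := IsPGroup.iff_card.1 hBp
  obtain ⟨n, hn⟩ := IsPGroup.iff_card.1 hAp
  have hA' : Nat.card (A.subgroupOf B) = p ^ n := by
    rw [← hn]; exact Nat.card_congr (Subgroup.subgroupOfEquivOfLe hAB).toEquiv
  have hnd : n ≤ d := by
    rw [hn] at h1
    exact (Nat.pow_le_pow_iff_right hp.one_lt).1 h1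
  have hdm : d ≤ m := by
    rw [hm] at h2
    exact (Nat.pow_le_pow_iff_right hp.one_lt).1 h2
  obtain ⟨K, hK, hAK⟩ := Sylow.exists_subgroup_card_pow_prime_le (p := p) (n := n) (m := d)
    (by rw [hm]; exact pow_dvd_pow p hdm) (A.subgroupOf B) hA' hnd
  refine ⟨K.map B.subtype, fun x hx => ?_, ?_, ?_⟩
  · exact ⟨⟨x, hAB hx⟩, hAK hx, rfl⟩
  · rintro _ ⟨x, -, rfl⟩; exact x.2
  · rw [← hK]
    exact Nat.card_congr (K.equivMapOfInjective _ B.subtype_injective).symm.toEquiv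

/-- The hypothesis on the subgroups of order `p ^ d`. -/
def WE (F : FusionSystem S) (n : ℕ) : Prop := ∀ Q : Subgroup Ω, Q ≤ S → Nat.card ↥Q = n →
  ∃ P : Subgroup Ω, F.StronglyClosed P ∧ F.StronglyClosed (Q ⊔ P) ∧ F.StronglyClosed (Q ⊓ P)

/-- Lemma X -/
theorem exists_step [Finite S] [Fact p.Prime] (hS : IsPGroup p S) (hW : WE F (p ^ d)) (I : Subgroup Ω → Prop)
    (hI1 : ∀ X, I X → X ≤ S) (hI2 : ∀ X Y, I X → I Y → I (X ⊔ Y)) (hI3 : ∀ P X, F.StronglyClosed P → I X → I (P ⊓ X))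
    {A C : Subgroup Ω} (hA : I A) (hC : I C) (hAC : A < C) (hAd : Nat.card A < p ^ d) :
    ∃ B, I B ∧ A < B ∧ B ≤ C ∧ Nat.card B ≤ p ^ d ∧ ∀ X, I X → A < X → X ≤ B → X = B := by
  classical
  -- a minimal one
  obtain ⟨n, ⟨B, hB, hAB, hBC, hBn⟩, hmin⟩ : ∃ n : ℕ, (∃ B, I B ∧ A < B ∧ B ≤ C ∧ Nat.card B = n) ∧
      ∀ m < n, ¬ ∃ B, I B ∧ A < B ∧ B ≤ C ∧ Nat.card B = m := by
    have hex : ∃ n : ℕ, ∃ B, I B ∧ A < B ∧ B ≤ C ∧ Nat.card B = n := ⟨_, C, hC, hAC, le_rfl, rfl⟩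
    exact ⟨Nat.find hex, Nat.find_spec hex, fun m hm => Nat.find_min hex hm⟩
  have hBS := hI1 B hB
  have hfB : Finite B := finite_of_le hBS
  have hmin' : ∀ X, I X → A < X → X ≤ B → X = B := by
    intro X hX hAX hXB
    by_contra hne
    have hlt : Nat.card X < Nat.card B := card_lt_of_lt (lt_of_le_of_ne hXB hne) hBS
    rw [hBn] at hlt
    exact hmin _ hlt ⟨X, hX, hAX, hXB.trans hBC, rfl⟩
  refine ⟨B, hB, hAB, hBC, ?_, hmin'⟩
  by_contra hgt
  rw [not_le] at hgt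
  obtain ⟨Q, hAQ, hQB, hQ⟩ := exists_between hS hBS hAB.le hAd.le hgt.le
  obtain ⟨P, hP, hQP, hQP'⟩ := hW Q (hQB.trans hBS) hQ
  have hAQ' : A < Q := lt_of_le_of_ne hAQ fun h => by rw [h, hQ] at hAd; exact lt_irrefl _ hAd
  have hQI : ¬ I Q := fun h => by
    have h1 := hmin' Q h hAQ' hQB
    rw [← h1, hQ] at hgt
    exact lt_irrefl _ hgt
  have hPn : S ≤ Subgroup.normalizer (P : Set Ω) := normalizes_of_stronglyClosed hP
  have hPB : I (P ⊓ B) := hI3 P B hP hB
  have hP'A := hI2 _ _ hPB hA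
  have hle : (P ⊓ B) ⊔ A ≤ B := sup_le inf_le_right hAB.le
  rcases eq_or_lt_of_le (le_sup_right : A ≤ (P ⊓ B) ⊔ A) with h1 | h1
  · -- P ∩ B ≤ A
    have hPBA : P ⊓ B ≤ A := by rw [h1]; exact le_sup_left
    apply hQI
    have h2 : (Q ⊔ P) ⊓ B = Q := by
      apply le_antisymm
      · rintro z ⟨hz, hzB⟩
        have hz' : z ∈ Q ⊔ P := hz
        rw [mem_sup_of_normalizes ((hQB.trans hBS).trans hPn)] at hz'
        obtain ⟨y, hy, x, hx, rfl⟩ := hz'
        refine Q.mul_mem hy (hAQ (hPBA ⟨hx, ?_⟩))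
        have := B.mul_mem (B.inv_mem (hQB hy)) hzB
        rwa [inv_mul_cancel_left] at this
      · exact le_inf le_sup_left hQB
    rw [← h2]
    exact hI3 _ _ hQP hB
  · have h2 := hmin' _ hP'A h1 hle
    apply hQI
    have h3 : ((Q ⊓ P) ⊓ B) ⊔ A = Q := by
      apply le_antisymm
      · exact sup_le (inf_le_left.trans inf_le_left) hAQ
      · intro z hz
        have hzB := hQB hz
        rw [← h2, sup_comm, mem_sup_of_normalizes] at hzB
        · obtain ⟨y, hy, x, hx, rfl⟩ := hzB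
          have hxQ : x ∈ Q := by
            have := Q.mul_mem (Q.inv_mem (hAQ hy)) hz
            rwa [inv_mul_cancel_left] at this
          exact Subgroup.mul_mem _ (Subgroup.mem_sup_right hy) (Subgroup.mem_sup_left ⟨⟨hxQ, hx.1⟩, hx.2⟩)
        · intro y hy
          refine mem_normalizer_of_forall (inf_le_left.trans hP.1) ((hAB.le.trans hBS) hy) ?_
          rintro x ⟨hx1, hx2⟩
          refine ⟨(Subgroup.mem_normalizer_iff.1 (hPn ((hAB.le.trans hBS) hy)) x).1 hx1, ?_⟩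
          exact B.mul_mem (B.mul_mem (hAB.le hy) hx2) (B.inv_mem (hAB.le hy))
    rw [← h3]
    exact hI2 _ _ (hI3 _ _ hQP' hB) hA

/-- Corollary of Lemma X -/
theorem exists_order_eq [Finite S] [Fact p.Prime] (hS : IsPGroup p S) (hW : WE F (p ^ d)) (I : Subgroup Ω → Prop)
    (hI1 : ∀ X, I X → X ≤ S) (hI2 : ∀ X Y, I X → I Y → I (X ⊔ Y)) (hI3 : ∀ P X, F.StronglyClosed P → I X → I (P ⊓ X))
    {A C : Subgroup Ω} (hA : I A) (hC : I C) (hAC : A ≤ C) (hAd : Nat.card A ≤ p ^ d) (hCd : p ^ d ≤ Nat.card C) :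
    ∃ B, I B ∧ A ≤ B ∧ B ≤ C ∧ Nat.card B = p ^ d := by
  classical
  obtain ⟨n, hn⟩ : ∃ n, n = p ^ d - Nat.card A := ⟨_, rfl⟩
  induction n using Nat.strong_induction_on generalizing A with
  | _ n ih =>
    rcases eq_or_lt_of_le hAd with h | h
    · exact ⟨A, hA, le_rfl, hAC, h⟩
    · have hAC' : A < C := lt_of_le_of_ne hAC fun h' => by
        rw [h'] at h; exact absurd hCd (not_le.2 h)
      obtain ⟨B, hB, hAB, hBC, hBd, -⟩ := exists_step hS hW I hI1 hI2 hI3 hA hC hAC' h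
      have hlt : Nat.card A < Nat.card B := card_lt_of_lt hAB (hI1 B hB)
      obtain ⟨B', h1, h2, h3, h4⟩ := ih (p ^ d - Nat.card B) (by omega) hB hBC hBd rfl
      exact ⟨B', h1, hAB.le.trans h2, h3, h4⟩

/-- the hypothesis on the normalizer systems -/
def NI (F : FusionSystem S) (n : ℕ) : Prop := ∀ H : Subgroup Ω, F.IsFullyNormalized H → Nat.card ↥H = n →
  ∀ N : FusionSystem (normalizerIn S H), F.IsNormalizerSystem H N →
    ∀ P : Subgroup Ω, N.Hom P = (innerFusionSystem (normalizerIn S H)).Hom P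

/-- Lemma 2 -/
theorem pp_trivial [Finite S] [Fact p.Prime] (hS : IsPGroup p S) (hF : F.IsSaturated p) (hW : WE F (p ^ d))
    (hN : NI F (p ^ d)) (ha : PP F p R a) (hR : p ^ d ≤ Nat.card R) : ∀ x ∈ R, a x = x := by
  have hRS := ha.le
  obtain ⟨H, ⟨hHR, hHa⟩, -, -, hHc⟩ := exists_order_eq (A := ⊥) (C := R) hS hW (fun X => X ≤ R ∧ ∀ x ∈ X, a x ∈ X)
    (fun X hX => hX.1.trans hRS) (fun X Y hX hY => ⟨sup_le hX.1 hY.1, inv_sup ha.map hX.1 hY.1 hX.2 hY.2⟩)
    (fun P X hP hX => ⟨inf_le_right.trans hX.1, fun x hx =>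
      ⟨StronglyClosed.map_mem F hP ha.map (hX.1 hx.2) hx.1, hX.2 x hx.2⟩⟩)
    ⟨bot_le, fun x hx => by
      rw [Subgroup.mem_bot] at hx ⊢; rw [hx, ha.map.map_one]⟩ ⟨le_rfl, fun x hx => ha.mem hx⟩ bot_le
    (by rw [Subgroup.card_bot]; exact Nat.one_le_pow _ _ (Fact.out : p.Prime).pos) hR
  refine pp_trivial_of_inner_normalizer hS hF (H := H) (fun H' h1 h2 => hN H' h1 (h2.trans hHc)) ha hHR hHa

variable {Ω' : Type v} [Group Ω'] {S' : Subgroup Ω'} {E : FusionSystem S'} {θ : S →* Ω'} {P' Q' : Subgroup Ω'}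
  {a' f' g' : Ω' → Ω'}

/-- Lemma Y -/
theorem pp_trivial_factor [Finite S] [Fact p.Prime] (hS : IsPGroup p S) (hF : F.IsSaturated p) (hW : WE F (p ^ d))
    (hN : NI F (p ^ d)) (hT : F.StronglyClosed T) (hE : F.IsFactorSystem T θ E) (ha : PP E p P' a')
    (hP' : p ^ d ≤ Nat.card (preimageAlong θ P')) : ∀ x ∈ P', a' x = x := by
  obtain ⟨hTS, hθ, hS', h⟩ := id hE
  have hfin' : Finite S' := finite_range hS'
  obtain ⟨Q, hQd⟩ : ∃ Q, Q = preimageAlong θ P' := ⟨_, rfl⟩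
  have hQS : Q ≤ S := by rw [hQd]; exact pre_le
  have hTQ : T ≤ Q := by rw [hQd]; exact le_pre hTS hθ
  have him : imageAlong θ Q = P' := by rw [hQd]; exact im_pre hS' ha.le
  subst him
  obtain ⟨π, hπ, hπ'⟩ := exists_autMap hT hE hTQ hQS
  obtain ⟨α, hα⟩ := hπ ⟨ha.1.equiv, ha.aut_mem⟩
  have hfQ : Finite Q := finite_of_le hQS
  have hord : (orderOf (π α)).Coprime p := by
    rw [hα, ← Subgroup.orderOf_coe]
    exact ha.order
  obtain ⟨r, hr1, hr2⟩ := exists_coprime_lift π α hord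
  have h1 : PP F p Q (autFun ((α ^ r : F.autGroup Q) : MulAut Q)) := by
    refine pp_of_aut hQS (α ^ r).2 ?_
    rw [Subgroup.orderOf_coe]; exact hr1
  rw [← hQd] at hP'
  have h2 := pp_trivial hS hF hW hN h1 hP'
  have h3 : (α ^ r : F.autGroup Q) = 1 := Subtype.ext (eq_one_of_autFun h2)
  rw [h3, map_one] at hr2
  intro x hx
  have h4 : (ha.1.equiv : MulAut (imageAlong θ Q)) = 1 := by
    have := congrArg Subtype.val (hr2.trans hα)
    exact this.symm
  have h5 : ((ha.1.equiv : MulAut (imageAlong θ Q)) ⟨x, hx⟩ : Ω') = x := by rw [h4]; rfl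
  exact h5

/-- Lemma 4 -/
theorem hyp_le_of_card [Finite S] [Fact p.Prime] (hS : IsPGroup p S) (hF : F.IsSaturated p) (hW : WE F (p ^ d))
    (hN : NI F (p ^ d)) (hT : F.StronglyClosed T) (hTd : p ^ d ≤ Nat.card T) : F.hyperfocalSubgroup p ≤ T := by
  have hTn : (T.subgroupOf S).Normal := by
    refine ⟨fun x hx s => ?_⟩
    exact StronglyClosed.map_mem F hT (fmap_conj F hT.1 s.2) hx hx
  have hθ : ∀ s : S, (QuotientGroup.mk' (T.subgroupOf S)) s = 1 ↔ (s : Ω) ∈ T := by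
    intro s
    rw [QuotientGroup.mk'_apply, QuotientGroup.eq_one_iff, Subgroup.mem_subgroupOf]
  have hS' : (QuotientGroup.mk' (T.subgroupOf S)).range = ⊤ :=
    MonoidHom.range_eq_top.2 (QuotientGroup.mk'_surjective _)
  obtain ⟨E, hE⟩ := Cfsg.Agent.Lib.FusionFactor.exists_factorSystem F T hT (QuotientGroup.mk' (T.subgroupOf S)) hθ hS'
  have hfin' : Finite (⊤ : Subgroup (S ⧸ T.subgroupOf S)) := finite_range hS'
  have hhyp := hyp_factor hS hF hT hE
  have h1 : E.hyperfocalSubgroup p = ⊥ := by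
    rw [hyp_eq, Subgroup.closure_eq_bot_iff]
    rintro _ ⟨P', α, hP', hα, ho, x, rfl⟩
    have h2 := pp_of_aut hP' hα ho
    have h3 := pp_trivial_factor hS hF hW hN hT hE h2 (hTd.trans (by
      have : Finite (preimageAlong (QuotientGroup.mk' (T.subgroupOf S)) P') := finite_of_le pre_le
      exact Subgroup.card_le_of_le (le_pre hT.1 hθ))) x x.2
    rw [autFun_coe] at h3
    rw [Set.mem_singleton_iff, h3, inv_mul_cancel]
  rw [hhyp] at h1
  intro x hx
  have hxS := hyp_le hx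
  rw [← ev_eq_one_iff hθ hxS, ← Subgroup.mem_bot, ← h1]
  exact mem_im.2 ⟨x, hx, hxS, rfl⟩

/-- Lemma 5: a system with central hyperfocal subgroup and no `p'`-automorphisms of `S` is inner -/
theorem hyp_eq_bot_of_central [Finite S] [Fact p.Prime] (hS : IsPGroup p S) (hF : F.IsSaturated p)
    (hc : ∀ x ∈ F.hyperfocalSubgroup p, ∀ s ∈ S, s * x = x * s) (h : ∀ a, PP F p S a → ∀ x ∈ S, a x = x) :
    F.hyperfocalSubgroup p = ⊥ := by
  have hTS : F.hyperfocalSubgroup p ≤ S := hyp_le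
  have hTn : ((F.hyperfocalSubgroup p).subgroupOf S).Normal := by
    refine ⟨fun x hx s => ?_⟩
    exact conj_mem_hyp s.2 hx
  have hTc : F.StronglyClosed (F.hyperfocalSubgroup p) := stronglyClosed_of_hyp_le hS hF hTS hTn le_rfl
  have htop : ∀ f, FIso F S S f → ∃ s ∈ S, ∀ x ∈ S, f x = s * x * s⁻¹ := by
    intro f hf
    have h1 : F.autGroup S ≤ autInducedBy S S := by
      refine le_autInducedBy_of_pp (fullyAutomized_of_fullyNormalized hS hF (isFullyNormalized_top F)) le_rfl ?_ ?_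
      · intro α hα κ hκ
        exact Subgroup.mul_mem _ (Subgroup.mul_mem _ hα hκ) (Subgroup.inv_mem _ hα)
      · intro κ _ hpp
        exact eq_one_of_autFun (h _ hpp)
    obtain ⟨s, hs, h2⟩ := mem_autInducedBy_iff.1 (h1 hf.equiv_mem_autGroup)
    exact ⟨s, hs, fun x hx => h2 ⟨x, hx⟩⟩
  have hess : ∀ P, F.IsEssential p P → P = S := by
    intro P hP
    refine eq_top_of_chain hS hP.1 (isRadical_of_essential hS hP) (fun n => if n = 0 then ⊥ else F.hyperfocalSubgroup p) 1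
      (by simp) ?_ ?_ ?_
    · intro i α hα x hx
      by_cases hi : i = 0
      · simp only [hi, if_true] at hx ⊢
        have hx1 : x = 1 := Subtype.ext ((Subgroup.mem_bot).1 hx)
        rw [hx1, map_one]; exact Subgroup.one_mem _
      · simp only [hi, if_false] at hx ⊢
        exact aut_coe_mem hTc hP.1.1 hα hx
    · intro i s hs _ x hx _
      have hx' : x ∈ F.hyperfocalSubgroup p := by simpa using hx
      rw [hc x hx' s hs, mul_inv_cancel_right, inv_mul_cancel]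
      exact Subgroup.one_mem _
    · intro α hα ho h3
      have hpp := pp_of_aut hP.1.1 hα ho
      apply eq_one_of_autFun
      intro x hx
      refine hpp.fix hS (Y := F.hyperfocalSubgroup p ⊓ P) inf_le_right hx ⟨?_, ?_⟩ ?_
      · exact pp_comm_mem_hyp hpp hx
      · exact P.mul_mem (P.inv_mem hx) (hpp.mem hx)
      · rintro y ⟨hy1, hy2⟩
        have h4 := h3 ⟨y, hy2⟩ (by simpa using hy1)
        have h5 := autFun_coe α ⟨y, hy2⟩
        rw [h4] at h5
        exact h5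
  have hinn : ∀ P f, FMap F P f → ∃ s ∈ S, ∀ x ∈ P, f x = s * x * s⁻¹ := by
    refine FusionHyper.alperin_induction hS hF (fun P f => ∃ s ∈ S, ∀ x ∈ P, f x = s * x * s⁻¹) ?_ ?_ ?_ ?_ ?_
    · rintro P f g _ h1 ⟨s, hs, h2⟩
      exact ⟨s, hs, fun x hx => by rw [← h1 x hx, h2 x hx]⟩
    · intro P s _ hs
      exact ⟨s, hs, fun _ _ => rfl⟩
    · rintro P Q f g hf hg hfg ⟨s, hs, h1⟩ ⟨t, ht, h2⟩
      refine ⟨t * s, S.mul_mem ht hs, fun x hx => ?_⟩
      show g (f x) = _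
      rw [h2 _ (hfg x hx), h1 x hx]; group
    · rintro P Q f g hf hg hgf ⟨s, hs, h1⟩
      refine ⟨s⁻¹, S.inv_mem hs, fun y hy => ?_⟩
      obtain ⟨x, hx, rfl⟩ := hf.mem_iff.1 hy
      rw [hgf x hx, h1 x hx]; group
    · rintro P f (rfl | hP) hf
      · exact htop f hf
      · obtain rfl := hess P hP
        exact htop f hf
  have h6 : F.IsSubsystemOf (innerFusionSystem S) := fun P => (isInner_iff.2 hinn P).le
  have h7 := hyp_mono (p := p) h6
  rw [inner_hyp hS, le_bot_iff] at h7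
  exact h7

/-- The nontrivial direction of S5271. -/
theorem hyp_eq_bot [Finite S] [Fact p.Prime] (hS : IsPGroup p S) (hF : F.IsSaturated p) (hd : p ^ d < Nat.card S)
    (hW : WE F (p ^ d)) (hN : NI F (p ^ d)) : F.hyperfocalSubgroup p = ⊥ := by
  classical
  by_contra hT0
  obtain ⟨T, hTd⟩ : ∃ T, T = F.hyperfocalSubgroup p := ⟨_, rfl⟩
  rw [← hTd] at hT0
  have hTS : T ≤ S := by rw [hTd]; exact hyp_le
  -- N of maximal order among the strongly closed subgroups of order at most p^d not containing T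
  obtain ⟨n, ⟨N, hNc, hTN, hNd, hNn⟩, hmax⟩ : ∃ n : ℕ,
      (∃ N, F.StronglyClosed N ∧ ¬ T ≤ N ∧ Nat.card N ≤ p ^ d ∧ p ^ d - Nat.card N = n) ∧
      ∀ m < n, ¬ ∃ N, F.StronglyClosed N ∧ ¬ T ≤ N ∧ Nat.card N ≤ p ^ d ∧ p ^ d - Nat.card N = m := by
    have hex : ∃ n : ℕ, ∃ N, F.StronglyClosed N ∧ ¬ T ≤ N ∧ Nat.card N ≤ p ^ d ∧ p ^ d - Nat.card N = n := by
      refine ⟨_, ⊥, closed_bot F, fun h => hT0 (le_bot_iff.1 h), ?_, rfl⟩
      rw [Subgroup.card_bot]; exact Nat.one_le_pow _ _ (Fact.out : p.Prime).pos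
    exact ⟨Nat.find hex, Nat.find_spec hex, fun m hm => Nat.find_min hex hm⟩
  have hNd' : Nat.card N < p ^ d := by
    refine lt_of_le_of_ne hNd fun h => hTN ?_
    rw [hTd]; exact hyp_le_of_card hS hF hW hN hNc h.ge
  have hmax' : ∀ X, F.StronglyClosed X → N < X → Nat.card X ≤ p ^ d → T ≤ X := by
    intro X hX hNX hXd
    by_contra hTX
    have := card_lt_of_lt hNX hX.1
    exact hmax (p ^ d - Nat.card X) (by omega) ⟨X, hX, hTX, hXd, rfl⟩
  have hI1 : ∀ X, F.StronglyClosed X → X ≤ S := fun X hX => hX.1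
  have hI2 : ∀ X Y, F.StronglyClosed X → F.StronglyClosed Y → F.StronglyClosed (X ⊔ Y) := fun X Y hX hY =>
    Cfsg.Agent.S5128.result p hS F hF X Y hX hY
  have hI3 : ∀ P X, F.StronglyClosed P → F.StronglyClosed X → F.StronglyClosed (P ⊓ X) := fun P X hP hX =>
    closed_inf hP hX
  have hstep : ∀ C, F.StronglyClosed C → N < C → ∃ B, F.StronglyClosed B ∧ N < B ∧ B ≤ C ∧ T ≤ B ∧
      ∀ X, F.StronglyClosed X → N < X → X ≤ B → X = B := by
    intro C hC hNC
    obtain ⟨B, h1, h2, h3, h4, h5⟩ := exists_step hS hW F.StronglyClosed hI1 hI2 hI3 hNc hC hNC hNd'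
    exact ⟨B, h1, h2, h3, hmax' B h1 h2 h4, h5⟩
  have hNS : N < S := by
    refine lt_of_le_of_ne hNc.1 fun h => ?_
    rw [← h] at hd; exact lt_irrefl _ (hd.trans hNd')
  obtain ⟨B, hB, hNB, -, hTB, hBmin⟩ := hstep S (closed_top F) hNS
  -- the factor system
  have hNn : (N.subgroupOf S).Normal := by
    refine ⟨fun x hx s => ?_⟩
    exact StronglyClosed.map_mem F hNc (fmap_conj F hNc.1 s.2) hx hx
  have hθ : ∀ s : S, (QuotientGroup.mk' (N.subgroupOf S)) s = 1 ↔ (s : Ω) ∈ N := by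
    intro s
    rw [QuotientGroup.mk'_apply, QuotientGroup.eq_one_iff, Subgroup.mem_subgroupOf]
  have hS' : (QuotientGroup.mk' (N.subgroupOf S)).range = ⊤ :=
    MonoidHom.range_eq_top.2 (QuotientGroup.mk'_surjective _)
  obtain ⟨E, hE⟩ := Cfsg.Agent.Lib.FusionFactor.exists_factorSystem F N hNc (QuotientGroup.mk' (N.subgroupOf S)) hθ hS'
  have hfin' : Finite (⊤ : Subgroup (S ⧸ N.subgroupOf S)) := finite_range hS'
  have hpS' : IsPGroup p (⊤ : Subgroup (S ⧸ N.subgroupOf S)) := isPGroup_range hS hS'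
  have hEs := isSaturated_factor hS hF hNc hE
  have hhyp := hyp_factor hS hF hNc hE
  rw [← hTd] at hhyp
  have hEne : E.hyperfocalSubgroup p ≠ ⊥ := by
    intro h1
    apply hTN
    intro x hx
    have hxS := hTS hx
    rw [← ev_eq_one_iff hθ hxS, ← Subgroup.mem_bot, ← h1, hhyp]
    exact mem_im.2 ⟨x, hx, hxS, rfl⟩
  -- a maximal subgroup not containing T
  have hfoc : ¬ E.focalSubgroup ≤ (frattini (⊤ : Subgroup (S ⧸ N.subgroupOf S))).map (Subgroup.subtype _) := by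
    intro h1
    apply hEne
    have h2 := isInner_of_focal_le_frattini hpS' hEs h1
    have h3 : E.IsSubsystemOf (innerFusionSystem _) := fun P => (h2 P).le
    have h4 := hyp_mono (p := p) h3
    rwa [inner_hyp hpS', le_bot_iff] at h4
  have hM : ∃ M : Subgroup Ω, N ≤ M ∧ M ≤ S ∧ ¬ T ≤ M ∧ (M.subgroupOf S).Normal ∧ (M.subgroupOf S).index = p := by
    rw [focal_eq_hyp_sup hpS' hEs, sup_le_iff, not_and_or] at hfoc
    have hcomm : (commutator (⊤ : Subgroup (S ⧸ N.subgroupOf S))).map (Subgroup.subtype _) ≤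
        (frattini (⊤ : Subgroup (S ⧸ N.subgroupOf S))).map (Subgroup.subtype _) := by
      exact Subgroup.map_mono (H70Frattini.commutator_le_frattini hpS')
    rcases hfoc with hfoc | hfoc
    · obtain ⟨y, hy, hyf⟩ := SetLike.not_le_iff_exists.1 hfoc
      obtain ⟨K, hK, hyK⟩ : ∃ K : Subgroup (⊤ : Subgroup (S ⧸ N.subgroupOf S)), IsCoatom K ∧ (⟨y, Subgroup.mem_top y⟩ :
          (⊤ : Subgroup (S ⧸ N.subgroupOf S))) ∉ K := by
        by_contra hcon
        apply hyf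
        refine ⟨⟨y, Subgroup.mem_top y⟩, ?_, rfl⟩
        have h0 : (⟨y, Subgroup.mem_top y⟩ : (⊤ : Subgroup (S ⧸ N.subgroupOf S))) ∈
            frattini (⊤ : Subgroup (S ⧸ N.subgroupOf S)) := by
          unfold frattini Order.radical
          rw [Subgroup.mem_iInf]
          intro K
          rw [Subgroup.mem_iInf]
          intro hK
          by_contra hK2
          exact hcon ⟨K, hK, hK2⟩
        exact h0
      obtain ⟨K', hKK', hK'n, hK'i⟩ := WreathCocycle.exists_max hpS' hK.1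
      have hyK' : (⟨y, Subgroup.mem_top y⟩ : (⊤ : Subgroup (S ⧸ N.subgroupOf S))) ∉ K' := by
        intro h
        rcases hK.le_iff.1 hKK' with h1 | h1
        · rw [h1, Subgroup.index_top] at hK'i
          exact (Fact.out : p.Prime).one_lt.ne' hK'i.symm
        · rw [h1] at h; exact hyK h
      rw [hhyp] at hy
      obtain ⟨x, hx, hxS, rfl⟩ := mem_im.1 hy
      let ρ : S →* (⊤ : Subgroup (S ⧸ N.subgroupOf S)) :=
        (QuotientGroup.mk' (N.subgroupOf S)).codRestrict ⊤ (fun _ => Subgroup.mem_top _)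
      have hρ : Function.Surjective ρ := by
        rintro ⟨z, hz⟩
        obtain ⟨s, rfl⟩ := QuotientGroup.mk'_surjective _ z
        exact ⟨s, rfl⟩
      refine ⟨(K'.comap ρ).map S.subtype, ?_, ?_, ?_, ?_, ?_⟩
      · intro z hz
        refine ⟨⟨z, hNc.1 hz⟩, ?_, rfl⟩
        show ρ _ ∈ K'
        have : ρ ⟨z, hNc.1 hz⟩ = 1 := Subtype.ext ((hθ ⟨z, hNc.1 hz⟩).2 hz)
        rw [this]; exact K'.one_mem
      · rintro _ ⟨z, -, rfl⟩; exact z.2
      · intro h
        obtain ⟨z, hz, hzx⟩ := h hx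
        apply hyK'
        have h1 : z = ⟨x, hxS⟩ := Subtype.ext hzx
        rw [h1] at hz
        have h2 : ρ ⟨x, hxS⟩ ∈ K' := hz
        have h3 : ρ ⟨x, hxS⟩ = ⟨ev (QuotientGroup.mk' (N.subgroupOf S)) x, Subgroup.mem_top _⟩ :=
          Subtype.ext (ev_of_mem hxS).symm
        rwa [h3] at h2
      · rw [show ((K'.comap ρ).map S.subtype).subgroupOf S = K'.comap ρ from
          Subgroup.comap_map_eq_self_of_injective S.subtype_injective _]
        exact hK'n.comap ρ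
      · rw [show ((K'.comap ρ).map S.subtype).subgroupOf S = K'.comap ρ from
          Subgroup.comap_map_eq_self_of_injective S.subtype_injective _, Subgroup.index_comap_of_surjective _ hρ]
        exact hK'i
    · exact absurd hcomm hfoc
  obtain ⟨M, hNM, hMS, hTM, hMn, hMi⟩ := hM
  -- order of M
  have hMcard : p ^ d ≤ Nat.card M := by
    obtain ⟨m, hm⟩ := IsPGroup.iff_card.1 hS
    have h1 : Nat.card (M.subgroupOf S) * p = p ^ m := by
      rw [← hm, ← hMi]; exact Subgroup.card_mul_index _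
    have h2 : Nat.card (M.subgroupOf S) = Nat.card M := Nat.card_congr (Subgroup.subgroupOfEquivOfLe hMS).toEquiv
    rw [h2] at h1
    rw [hm] at hd
    have h3 := (Nat.pow_lt_pow_iff_right (Fact.out : p.Prime).one_lt).1 hd
    obtain ⟨m', rfl⟩ : ∃ m', m = m' + 1 := ⟨m - 1, by omega⟩
    rw [pow_succ] at h1
    have h4 := Nat.eq_of_mul_eq_mul_right (Fact.out : p.Prime).pos h1
    rw [h4]
    exact Nat.pow_le_pow_right (Fact.out : p.Prime).pos (by omega)
  have hfM : Finite M := finite_of_le hMS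
  -- T₁ = M ∩ B
  have hT1 : M ⊓ B = N := by
    have hT1d : Nat.card (M ⊓ B : Subgroup Ω) ≤ p ^ d := by
      obtain ⟨B', h1, h2, h3, h4, h5⟩ := exists_step hS hW F.StronglyClosed hI1 hI2 hI3 hNc hB hNB hNd'
      have h6 := hBmin B' h1 h2 h3
      rw [h6] at h4
      have hfB : Finite B := finite_of_le hB.1
      exact (Subgroup.card_le_of_le inf_le_right).trans h4
    obtain ⟨Q, hTQ, hQM, hQ⟩ := exists_between hS hMS inf_le_left hT1d hMcard
    have hTQn : ¬ T ≤ Q := fun h => hTM (h.trans hQM)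
    have hNQ : N ≤ Q := (le_inf hNM hNB.le).trans hTQ
    obtain ⟨P, hP, hQP, hQP'⟩ := hW Q (hQM.trans hMS) hQ
    -- (Q ∩ P) N = N
    have hX : (Q ⊓ P) ⊔ N = N := by
      by_contra hne
      have h1 : N < (Q ⊓ P) ⊔ N := lt_of_le_of_ne le_sup_right (Ne.symm hne)
      have h2 : (Q ⊓ P) ⊔ N ≤ Q := sup_le inf_le_left hNQ
      have hfQ : Finite Q := finite_of_le (hQM.trans hMS)
      exact hTQn ((hmax' _ (hI2 _ _ hQP' hNc) h1 ((Subgroup.card_le_of_le h2).trans hQ.le)).trans h2)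
    have hY : N < P ⊔ N := by
      refine lt_of_le_of_ne le_sup_right fun h => ?_
      have h1 : P ≤ Q := by
        refine le_trans ?_ hNQ
        rw [h]; exact le_sup_left
      rw [sup_eq_left.2 h1] at hQP
      apply hTQn
      rw [hTd]; exact hyp_le_of_card hS hF hW hN hQP hQ.ge
    obtain ⟨B', hB', hNB', hB'Y, hTB', -⟩ := hstep _ (hI2 _ _ hP hNc) hY
    have hYB : (P ⊔ N) ⊓ B = B := by
      refine hBmin _ (hI3 _ _ (hI2 _ _ hP hNc) hB) ?_ inf_le_right
      refine lt_of_le_of_ne (le_inf le_sup_right hNB.le) fun h => hTN ?_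
      rw [h]; exact le_inf (hTB'.trans hB'Y) hTB
    have hBY : B ≤ P ⊔ N := by rw [← hYB]; exact inf_le_left
    refine le_antisymm (fun x hx => ?_) (le_inf hNM hNB.le)
    have hxY := hBY hx.2
    rw [mem_sup_of_normalizes (hP.1.trans (normalizes_of_stronglyClosed hNc))] at hxY
    obtain ⟨y, hy, z, hz, rfl⟩ := hxY
    have hyQ : y ∈ Q := by
      have := Q.mul_mem (hTQ hx) (Q.inv_mem (hNQ hz))
      rwa [mul_inv_cancel_right] at this
    have hyN : y ∈ N := by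
      rw [← hX]; exact Subgroup.mem_sup_left ⟨hyQ, hy⟩
    exact N.mul_mem hyN hz
  -- hyp(E) is central
  apply hEne
  refine hyp_eq_bot_of_central hpS' hEs ?_ ?_
  · rw [hhyp]
    intro y hy s _
    obtain ⟨x, hx, hxS, rfl⟩ := mem_im.1 hy
    obtain ⟨t, htS, rfl⟩ := exists_ev hS' (Subgroup.mem_top s)
    rw [← ev_mul htS hxS, ← ev_mul hxS htS, ev_eq_iff hθ (S.mul_mem htS hxS) (S.mul_mem hxS htS), ← hT1]
    have h1 : (t * x)⁻¹ * (x * t) = x⁻¹ * t⁻¹ * x * t := by group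
    rw [h1]
    refine ⟨?_, ?_⟩
    · -- in the commutator subgroup of S
      have h2 : commutator S ≤ M.subgroupOf S := by
        have hcyc : IsCyclic (S ⧸ M.subgroupOf S) := by
          apply isCyclic_of_prime_card (p := p)
          rw [← hMi]; rfl
        refine Subgroup.Normal.quotient_commutative_iff_commutator_le.1 ⟨⟨fun a b => ?_⟩⟩
        let _ := hcyc.commGroup
        exact mul_comm a b
      have h3 : (⟨x, hxS⟩ : S)⁻¹ * (⟨t, htS⟩ : S)⁻¹ * ⟨x, hxS⟩ * ⟨t, htS⟩ ∈ commutator S := by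
        have h4 := Subgroup.commutator_mem_commutator (Subgroup.mem_top (⟨x, hxS⟩ : S)⁻¹) (Subgroup.mem_top (⟨t, htS⟩ : S)⁻¹)
        rw [commutatorElement_def, inv_inv, inv_inv] at h4
        exact h4
      exact h2 h3
    · have h2 : t⁻¹ * x * t⁻¹⁻¹ ∈ B := StronglyClosed.map_mem F hB (fmap_conj F hB.1 (S.inv_mem htS)) (hTB hx) (hTB hx)
      have h3 := B.mul_mem (B.inv_mem (hTB hx)) h2
      have h4 : x⁻¹ * t⁻¹ * x * t = x⁻¹ * (t⁻¹ * x * t⁻¹⁻¹) := by group
      rw [h4]; exact h3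
  · intro a ha
    refine pp_trivial_factor hS hF hW hN hNc hE ha ?_
    have h1 : preimageAlong (QuotientGroup.mk' (N.subgroupOf S)) ⊤ = S := by
      apply le_antisymm pre_le
      intro x hx
      exact mem_pre.2 ⟨hx, Subgroup.mem_top _⟩
    rw [h1]; exact hd.le

end Cfsg.Agent.Lib.FusionWeakEmb

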