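import Cfsg.Agent.Lib.SuzG2Data
import Cfsg.Agent.Lib.G2K4
import Cfsg.Agent.Lib.GoursatHom
import Cfsg.Agent.Lib.SuzOrd

/-!
# The subgroup `G₂(4)` of the presented Suzuki sporadic group
-/

set_option autoImplicit false
set_option linter.all false
set_option maxRecDepth 100000

namespace Cfsg.Agent.Lib.SuzG2

open Cfsg.Spor Cfsg.Agent.Lib.BenesPerm Cfsg.Agent.Lib.BenesAct Cfsg.Agent.Lib.BenesWord
open Cfsg.Agent.Lib.BenesPlane Cfsg.Agent.Lib.CosetClosure Cfsg.Agent.Lib.CosetFacts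
open Cfsg.Agent.Lib.CosetMain Cfsg.Agent.Lib.CoxBridge Cfsg.Agent.Lib.CosetGroup Cfsg.Agent.Lib.CosetInst Cfsg.Agent.Lib.CosetInj
open Cfsg.Agent.Lib.BenesPack Cfsg.Agent.Lib.CosetPack Cfsg.Agent.Lib.CosetOrder Cfsg.Agent.Lib.CosetChain
open Cfsg.Agent.Lib.SuzRel Cfsg.Agent.Lib.SuzNetsA Cfsg.Agent.Lib.SuzCertA Cfsg.Agent.Lib.SuzA
open Cfsg.Agent.Lib.K4 Cfsg.Agent.Lib.SliceK4n Cfsg.Agent.Lib.SuzG2Data Cfsg.Agent.Lib.GoursatHom
open Cfsg.Agent.Lib.G2K4
open Cfsg.Agent.Lib.SliceK4 (k4 k4_cases)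
open Cfsg.Agent.Lib.SuzAIdx (M0)
open Cfsg.Lie

/-- the sparse matrices of a word -/
def mw (w : List (ℕ × K4)) : List (List (List (ℕ × K4))) := (w.map sm).reverse

theorem t0 : mtK nets [0] (mw w0) L M0 = true := by decide +kernel
theorem t1 : mtK nets [1] (mw w1) L M0 = true := by decide +kernel
theorem t2 : mtK nets [2] (mw w2) L M0 = true := by decide +kernel
theorem t3 : mtK nets [3] (mw w3) L M0 = true := by decide +kernel
theorem t4 : mtK nets [4] (mw w4) L M0 = true := by decide +kernel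
theorem t5 : mtK nets [5] (mw w5) L M0 = true := by decide +kernel

/-- the frame -/
theorem f1 : ∀ j k : Fin 14, (∑ m, Bi j m * cv L (bl m) k.val) = if j = k then 1 else 0 := by decide +kernel
theorem f2 : ∀ k : Fin 14, (∑ j : Fin 14, cv L fr j.val * Bi j k) ≠ 0 := by decide +kernel
theorem f3 : ∀ k : Fin 14, M0.testBit (bl k) = true := by decide +kernel
theorem f4 : M0.testBit fr = true := by decide +kernel

/-- only lane `b` has the vector `v` up to scalars -/
noncomputable def lonK (v : List (Bool × Bool)) (b : ℕ) : Bool :=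
  bandK (Nat.beq (eqM 1 (cpl (2 ^ 2048 - 1) v) L M0) (2 ^ b))
    (bandK (Nat.beq (eqM om (cpl (2 ^ 2048 - 1) v) L M0) 0) (Nat.beq (eqM om' (cpl (2 ^ 2048 - 1) v) L M0) 0))

theorem a160 : lonK v160 160 = true := by decide +kernel
theorem a2 : lonK v2 2 = true := by decide +kernel
theorem a1 : lonK v1 1 = true := by decide +kernel

theorem e160 : ∀ j : Fin 14, cv L 160 j.val = k4 (v160.getD j.val (false, false)).1 (v160.getD j.val (false, false)).2 := by decide +kernel
theorem e2 : ∀ j : Fin 14, cv L 2 j.val = k4 (v2.getD j.val (false, false)).1 (v2.getD j.val (false, false)).2 := by decide +kernel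
theorem e1 : ∀ j : Fin 14, cv L 1 j.val = k4 (v1.getD j.val (false, false)).1 (v1.getD j.val (false, false)).2 := by decide +kernel

theorem cv_out (i j : ℕ) (hj : 14 ≤ j) : cv L i j = 0 := by
  unfold cv
  rw [nthK_eq]
  have : L[j]? = none := List.getElem?_eq_none hj
  rw [this]
  exact val_zero i

theorem cv_cpl (v : List (Bool × Bool)) (hv : v.length = 14) (b : ℕ)
    (hb : ∀ j : Fin 14, cv L b j.val = k4 (v.getD j.val (false, false)).1 (v.getD j.val (false, false)).2)
    (i : ℕ) (hi : i < 2048) (j : ℕ) : cv (cpl (2 ^ 2048 - 1) v) i j = cv L b j := by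
  by_cases hj : j < 14
  · rw [hb ⟨j, hj⟩]
    unfold cv cpl
    rw [nthK_eq, List.getElem?_map, List.getD_eq_getElem?_getD]
    have h1 : v[j]? = some (v[j]'(by rw [hv]; exact hj)) := List.getElem?_eq_getElem _
    rw [h1]
    simp only [Option.map_some, Option.getD_some]
    unfold Cfsg.Agent.Lib.SliceK4.val
    have h2 : (2 ^ 2048 - 1).testBit i = true := by
      rw [Nat.testBit_two_pow_sub_one]; exact decide_eq_true hi
    generalize v[j]'(by rw [hv]; exact hj) = q
    obtain ⟨a, b⟩ := q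
    cases a <;> cases b <;> simp [h2]
  · rw [cv_out b j (not_lt.mp hj)]
    unfold cv cpl
    rw [nthK_eq, List.getElem?_map]
    have h1 : v[j]? = none := List.getElem?_eq_none (by rw [hv]; exact not_lt.mp hj)
    rw [h1]
    exact val_zero i

theorem lon {v : List (Bool × Bool)} (hv : v.length = 14) {b : ℕ}
    (hb : ∀ j : Fin 14, cv L b j.val = k4 (v.getD j.val (false, false)).1 (v.getD j.val (false, false)).2)
    (hc : lonK v b = true) {i : ℕ} (hi : M0.testBit i = true) {s : K4} (hs : s ≠ 0) (h : vec L b = s • vec L i) : i = b := by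
  have hi2 : i < 2048 := by
    by_contra hcon
    have h1 : M0 < 2 ^ i := lt_of_lt_of_le Cfsg.Agent.Lib.SuzAIdx.o0_lt (Nat.pow_le_pow_right (by norm_num) (by simpa using hcon))
    rw [Nat.testBit_lt_two_pow h1] at hi
    exact absurd hi (by decide)
  have h1 : ∀ j, cv (cpl (2 ^ 2048 - 1) v) i j = s * cv L i j := by
    intro j
    rw [cv_cpl v hv b hb i hi2]
    by_cases hj : j < 14
    · have := congrFun h (ix j hj)
      unfold vec at this
      rw [cd_ix] at this
      simpa [cd_ix] using this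
    · rw [cv_out b j (not_lt.mp hj), cv_out i j (not_lt.mp hj), mul_zero]
  have h2 := badL_zero (cpl (2 ^ 2048 - 1) v) L h1
  unfold lonK at hc
  rw [bandK_eq_true, bandK_eq_true] at hc
  obtain ⟨c1, c2, c3⟩ := hc
  have c1 := Nat.eq_of_beq_eq_true c1
  have c2 := Nat.eq_of_beq_eq_true c2
  have c3 := Nat.eq_of_beq_eq_true c3
  have key : (eqM s (cpl (2 ^ 2048 - 1) v) L M0).testBit i = true := by
    have e : eqM s (cpl (2 ^ 2048 - 1) v) L M0 = (badL s (cpl (2 ^ 2048 - 1) v) L &&& M0) ^^^ M0 := rfl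
    rw [e, Nat.testBit_xor, Nat.testBit_and, h2, hi]; rfl
  rcases k4_cases s with rfl | rfl | rfl | rfl
  · exact absurd rfl hs
  · rw [c1, Nat.testBit_two_pow] at key
    exact (of_decide_eq_true key).symm
  · rw [c2] at key; simp at key
  · rw [c3] at key; simp at key

/-- the labels -/
def X : Set ℕ := {i | M0.testBit i = true}

theorem hok : ∀ c, (netOf nets c).OK := fun c => Net.ok_of_check (check_netOf c_nets c)

theorem mt_of_check {φ : (CoxPresented Suz.Gen Suz.edges Suz.extra) →* Equiv.Perm ℕ} (hφ : ∀ c, φ (C.x HL c) = sperm nets c)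
    {W : Wd} {w : List (ℕ × K4)} (hw : ∀ p ∈ w, p.1 < chevG2.nroots) (hl : (mats (mw w) L).length = L.length)
    (h : mtK nets (W.flat iv) (mw w) L M0 = true) :
    Mt X (vec L) ρ (φ (W.eval (C.x HL))) (el w) := by
  intro i hi
  obtain ⟨s, hs, h1⟩ := mtK_spec hok hl h i hi
  refine ⟨s, hs, ?_⟩
  have h2 : φ (W.eval (C.x HL)) i = wfn nets (W.flat iv) i := by
    rw [← prod_sperm_apply hok, ← Wd.eval_flat (C.x HL) iv x_iv W, map_list_prod, List.map_map]
    congr 2
    apply List.map_congr_left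
    intro c _
    exact hφ c
  rw [h2, el_apply, ← vec_mats w hw]
  funext j
  exact h1 (cd j)

theorem sm_len : ∀ p : ℕ × K4, p.1 < 12 → (sm p).length = 14 := by
  intro p hp
  unfold sm
  rw [List.length_map]
  exact base_len ⟨p.1, hp⟩

theorem mw_len {w : List (ℕ × K4)} (hw : ∀ p ∈ w, p.1 < 12) : (mats (mw w) L).length = L.length := by
  rw [mats_length (n := 14) (mw w) L ?_ rfl]; · rfl
  intro m hm
  unfold mw at hm
  rw [List.mem_reverse, List.mem_map] at hm
  obtain ⟨p, hp, rfl⟩ := hm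
  exact sm_len p (hw p hp)

theorem gens_ok {φ : (CoxPresented Suz.Gen Suz.edges Suz.extra) →* Equiv.Perm ℕ} (hφ : ∀ c, φ (C.x HL c) = sperm nets c) :
    ∀ t ∈ wset (C.x HL) WS, ∃ s : chevG2.group K4, Mt X (vec L) ρ (φ t) s := by
  rintro t ⟨W, hW, rfl⟩
  simp only [WS, List.mem_cons, List.not_mem_nil, or_false] at hW
  have h0 : ∀ p ∈ w0, p.1 < 12 := by decide
  have h1 : ∀ p ∈ w1, p.1 < 12 := by decide
  have h2 : ∀ p ∈ w2, p.1 < 12 := by decide
  have h3 : ∀ p ∈ w3, p.1 < 12 := by decide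
  have h4 : ∀ p ∈ w4, p.1 < 12 := by decide
  have h5 : ∀ p ∈ w5, p.1 < 12 := by decide
  rcases hW with rfl | rfl | rfl | rfl | rfl | rfl
  · exact ⟨_, mt_of_check hφ (W := Wd.g 0) h0 (mw_len h0) t0⟩
  · exact ⟨_, mt_of_check hφ (W := Wd.g 1) h1 (mw_len h1) t1⟩
  · exact ⟨_, mt_of_check hφ (W := Wd.g 2) h2 (mw_len h2) t2⟩
  · exact ⟨_, mt_of_check hφ (W := Wd.g 3) h3 (mw_len h3) t3⟩
  · exact ⟨_, mt_of_check hφ (W := Wd.g 4) h4 (mw_len h4) t4⟩
  · exact ⟨_, mt_of_check hφ (W := Wd.g 5) h5 (mw_len h5) t5⟩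

theorem main (H : Subgroup (CoxPresented Suz.Gen Suz.edges Suz.extra)) (hH : H = Subgroup.closure (wset (C.x HL) WS)) :
    Nonempty (H ≃* chevG2.group K4) := by
  obtain ⟨hsimp, hcard, φ, hφ, hinj, hbase⟩ := SuzOrd.main
  have hidx : H.index = 1782 := (Cfsg.Agent.Lib.SuzAIdx.main H hH).1
  have hcH : Nat.card H = 251596800 := by
    have h1 := H.card_mul_index
    rw [hidx, hcard] at h1
    omega
  have horb : ∀ j, (∃ h ∈ H, φ h 1 = j) ↔ j ∈ X := by
    intro j
    rw [hH]
    exact orbit_lanes c_nets hφ x_iv WS SuzAIdx.l0 SuzAIdx.o0_inv SuzAIdx.o0_reach j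
  have hfix0 : ∀ h ∈ H, φ h 0 = 0 := by
    intro h hh
    have h1 : (2 ^ 0 : ℕ).testBit (φ h 0) = true := by
      refine (orbit_lanes c_nets hφ x_iv WS [] (p := 0) SuzAIdx.c_fix (by decide +kernel) (φ h 0)).mp ⟨h, ?_, rfl⟩
      rw [← hH]; exact hh
    rw [Nat.testBit_two_pow] at h1
    exact (of_decide_eq_true h1).symm
  have hX : ∀ h ∈ H, ∀ i ∈ X, φ h i ∈ X := by
    intro h hh i hi
    obtain ⟨g, hg, rfl⟩ := (horb i).mpr hi
    exact (horb _).mp ⟨h * g, H.mul_mem hh hg, by rw [map_mul]; rfl⟩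
  obtain ⟨π, hπ, hall⟩ := match_hom (X := X) (pt := vec L) (ρ := ρ) φ H hX _ hH (gens_ok hφ) (⊥ : Subgroup (chevG2.group K4))
    (by
      intro s hs
      rw [Subgroup.mem_bot]
      refine eq_one_of_frame L bl fr Bi f1 f2 s ?_
      intro i hi
      have hiX : i ∈ X := by
        rcases hi with ⟨k, rfl⟩ | rfl
        · exact f3 k
        · exact f4
      obtain ⟨c, _, h1⟩ := hs i hiX
      exact ⟨c, h1⟩)
  have hfin : Finite H := Nat.finite_of_card_ne_zero (by rw [hcH]; norm_num)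
  have hinj : Function.Injective π := by
    rw [injective_iff_map_eq_one]
    intro h hh
    obtain ⟨s, hs⟩ := hall h
    rw [hπ h s hs, QuotientGroup.eq_one_iff, Subgroup.mem_bot] at hh
    subst hh
    apply Subtype.ext
    apply hbase
    intro b hb
    have key : ∀ b v, v.length = 14 → (∀ j : Fin 14, cv L b j.val = k4 (v.getD j.val (false, false)).1 (v.getD j.val (false, false)).2) →
        lonK v b = true → M0.testBit b = true → φ h b = b := by
      intro b v hv hb hc hM
      obtain ⟨c, hc0, h1⟩ := hs b hM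
      have h2 : vec L b = c • vec L (φ h b) := by
        rw [← h1, MonoidHom.map_one ρ]; rfl
      exact lon hv hb hc (hX h h.2 b hM) hc0 h2
    simp only [List.mem_cons, List.not_mem_nil, or_false] at hb
    rcases hb with rfl | rfl | rfl | rfl
    · exact key 160 v160 rfl e160 a160 (by decide +kernel)
    · exact key 2 v2 rfl e2 a2 (by decide +kernel)
    · exact key 1 v1 rfl e1 a1 (by decide +kernel)
    · exact hfix0 h h.2
  have hq : Nat.card (chevG2.group K4 ⧸ (⊥ : Subgroup (chevG2.group K4))) = 251596800 := by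
    rw [← G2K4.card]
    exact Nat.card_congr (QuotientGroup.quotientBot (G := chevG2.group K4)).toEquiv
  have hfq : Finite (chevG2.group K4 ⧸ (⊥ : Subgroup (chevG2.group K4))) := Nat.finite_of_card_ne_zero (by rw [hq]; norm_num)
  have hbij : Function.Bijective π := by
    refine (Nat.bijective_iff_injective_and_card π).mpr ⟨hinj, ?_⟩
    rw [hcH, hq]
  exact ⟨(MulEquiv.ofBijective π hbij).trans QuotientGroup.quotientBot⟩

end Cfsg.Agent.Lib.SuzG2
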