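import Cfsg.Agent.Lib.G2J2Data
import Cfsg.Agent.Lib.PrimLane
import Cfsg.Agent.Lib.LabHom
import Cfsg.Agent.Lib.SuzG2
import Cfsg.Agent.Lib.H58J2Main

/-!
# The maximal subgroup `J₂` of `G₂(4)`, inside the presented Suzuki group
-/

set_option autoImplicit false
set_option linter.all false
set_option maxRecDepth 100000

namespace Cfsg.Agent.Lib.G2J2

open Cfsg.Spor Cfsg.Agent.Lib.BenesPerm Cfsg.Agent.Lib.BenesAct Cfsg.Agent.Lib.BenesWord
open Cfsg.Agent.Lib.CosetClosure Cfsg.Agent.Lib.CosetFacts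
open Cfsg.Agent.Lib.CosetMain Cfsg.Agent.Lib.CoxBridge Cfsg.Agent.Lib.CosetGroup Cfsg.Agent.Lib.CosetInst Cfsg.Agent.Lib.CosetInj
open Cfsg.Agent.Lib.BenesPack Cfsg.Agent.Lib.CosetPack Cfsg.Agent.Lib.CosetOrder Cfsg.Agent.Lib.CosetChain
open Cfsg.Agent.Lib.SuzRel Cfsg.Agent.Lib.SuzNetsA Cfsg.Agent.Lib.SuzCertA Cfsg.Agent.Lib.SuzA
open Cfsg.Agent.Lib.G2J2Data Cfsg.Agent.Lib.PrimLane Cfsg.Agent.Lib.LabHom Cfsg.Agent.Lib.SliceTab
open Cfsg.Agent.Lib.H58J2 (beP bC ap P100 Is_gen)

theorem om_eq : SuzAIdx.M1 = OM := by decide +kernel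
theorem h_inv : invK nets (WS.map (Wd.flat iv)) OM = true := by decide +kernel
theorem h_reach : reachK nets (stepsW (WS.map (Wd.flat iv)) stH) (2 ^ 995) (fun V => Nat.beq V OM) = true := by decide +kernel
theorem om_lt : OM < 2 ^ 2 ^ 11 := by decide +kernel
theorem om_pop : popK 11 OM = 416 := by decide +kernel
theorem o1_lt : O1 < 2 ^ 2 ^ 11 := by decide +kernel
theorem o1_pop : popK 11 O1 = 100 := by decide +kernel
theorem o3_lt : O3 < 2 ^ 2 ^ 11 := by decide +kernel
theorem o3_pop : popK 11 O3 = 315 := by decide +kernel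

theorem f0 : invK nets (W0.map (Wd.flat iv)) (2 ^ 995) = true := by decide +kernel
theorem i0 : ∀ i, invK nets (W0.map (Wd.flat iv)) (M0 i) = true := by decide +kernel
theorem r0 : ∀ i, reachK nets (stepsW (W0.map (Wd.flat iv)) (s0 i)) (2 ^ p0 i) (fun V => Nat.beq V (M0 i)) = true := by decide +kernel
theorem c0 : ∀ i, popK 11 (M0 i) = z0 i := by decide +kernel
theorem u0 : unionF 995 M0 = OM := by decide +kernel
theorem d0 : ∀ i j, (M0 j).testBit (p0 i) = true → i = j := by decide +kernel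
theorem q0 : ∀ i, (M0 i).testBit 995 = false := by decide +kernel
theorem a0 : ∀ I : Finset (Fin 2), (1 + ∑ i ∈ I, z0 i) ∣ 416 → (1 + ∑ i ∈ I, z0 i) = 1 ∨ (1 + ∑ i ∈ I, z0 i) = 416 := by decide +kernel

theorem f1 : invK nets (W1.map (Wd.flat iv)) (2 ^ 47) = true := by decide +kernel
theorem i1 : ∀ i, invK nets (W1.map (Wd.flat iv)) (M1 i) = true := by decide +kernel
theorem r1 : ∀ i, reachK nets (stepsW (W1.map (Wd.flat iv)) (s1 i)) (2 ^ p1 i) (fun V => Nat.beq V (M1 i)) = true := by decide +kernel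
theorem c1 : ∀ i, popK 11 (M1 i) = z1 i := by decide +kernel
theorem u1 : unionF 47 M1 = O1 := by decide +kernel
theorem d1 : ∀ i j, (M1 j).testBit (p1 i) = true → i = j := by decide +kernel
theorem q1 : ∀ i, (M1 i).testBit 47 = false := by decide +kernel
theorem a1 : ∀ I : Finset (Fin 2), (1 + ∑ i ∈ I, z1 i) ∣ 100 → (1 + ∑ i ∈ I, z1 i) = 1 ∨ (1 + ∑ i ∈ I, z1 i) = 100 := by decide +kernel

theorem f2 : invK nets (W2.map (Wd.flat iv)) (2 ^ 81) = true := by decide +kernel
theorem i2 : ∀ i, invK nets (W2.map (Wd.flat iv)) (M2 i) = true := by decide +kernel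
theorem r2 : ∀ i, reachK nets (stepsW (W2.map (Wd.flat iv)) (s2 i)) (2 ^ p2 i) (fun V => Nat.beq V (M2 i)) = true := by decide +kernel
theorem c2 : ∀ i, popK 11 (M2 i) = z2 i := by decide +kernel
theorem u2 : unionF 81 M2 = O3 := by decide +kernel
theorem d2 : ∀ i j, (M2 j).testBit (p2 i) = true → i = j := by decide +kernel
theorem q2 : ∀ i, (M2 i).testBit 81 = false := by decide +kernel
theorem a2 : ∀ I : Finset (Fin 5), (1 + ∑ i ∈ I, z2 i) ∣ 315 → (1 + ∑ i ∈ I, z2 i) = 1 ∨ (1 + ∑ i ∈ I, z2 i) = 315 := by decide +kernel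

theorem m00 : G2J2Data.m0_0 = O1 := by decide +kernel
theorem m01 : G2J2Data.m0_1 = O3 := by decide +kernel

theorem lab_ok : labOK (2 ^ 2048 - 1) O1 L lane 100 = true := by decide +kernel

/-- the permutation of labels by a word of generators of `P100` -/
noncomputable def sg (w : List (Fin 5)) (x : ℕ) : ℕ := w.foldr (fun c y => ap (bC c) y) x

theorem sg_spec (w : List (Fin 5)) (x : Fin 100) : (((w.map beP).prod x : Fin 100) : ℕ) = sg w x := by
  induction w with
  | nil => rfl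
  | cons a w ih =>
    rw [List.map_cons, List.prod_cons, Equiv.Perm.mul_apply, Is_gen, ih]; rfl

theorem t1 : ∀ k : Fin 5, labK nets [k.val] L (sg (u k)) (2 ^ 2048 - 1) O1 100 = true := by decide +kernel
theorem t2 : ∀ k : Fin 5, labK nets ((v k).flat iv) L (ap (bC k)) (2 ^ 2048 - 1) O1 100 = true := by decide +kernel

theorem ap_lt (c x : ℕ) : ap c x < 2 ^ 7 := by
  unfold ap
  exact Nat.and_lt_two_pow _ (by norm_num)

theorem sg_lt (w : List (Fin 5)) {x : ℕ} (hx : x < 100) : sg w x < 2 ^ 7 := by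
  unfold sg
  cases w with
  | nil => exact lt_trans hx (by norm_num)
  | cons a w => exact ap_lt _ _

/-- the labelling -/
noncomputable def Lb : Lab {i | O1.testBit i = true} 100 :=
  mk (F := 2 ^ 2048 - 1) (P := L) (lane := lane) (by decide) (by
    intro i hi
    rw [Nat.testBit_two_pow_sub_one]
    by_contra hcon
    have h1 : O1 < 2 ^ i := lt_of_lt_of_le o1_lt (Nat.pow_le_pow_right (by norm_num) (by simpa using hcon))
    rw [Nat.testBit_lt_two_pow h1] at hi
    exact absurd hi (by decide)) lab_ok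

theorem hok : ∀ c, (netOf nets c).OK := fun c => Net.ok_of_check (check_netOf c_nets c)

section
variable {φ : (CoxPresented Suz.Gen Suz.edges Suz.extra) →* Equiv.Perm ℕ} (hφ : ∀ c, φ (C.x HL c) = sperm nets c)
include hφ

theorem phi_eval (W : Wd) (i : ℕ) : φ (W.eval (C.x HL)) i = wfn nets (W.flat iv) i := by
  rw [← prod_sperm_apply hok, ← Wd.eval_flat (C.x HL) iv x_iv W, map_list_prod, List.map_map]
  congr 2
  apply List.map_congr_left
  intro c _
  exact hφ c

theorem hom_word {J : Subgroup (CoxPresented Suz.Gen Suz.edges Suz.extra)}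
    (hX : ∀ g ∈ J, ∀ i ∈ {i | O1.testBit i = true}, φ g i ∈ {i | O1.testBit i = true}) {W : Wd}
    (hW : W.eval (C.x HL) ∈ J) {σ : ℕ → ℕ} (hσ : ∀ v, v < 100 → σ v < 2 ^ 7)
    (h : labK nets (W.flat iv) L σ (2 ^ 2048 - 1) O1 100 = true) (v : Fin 100) :
    ((hom Lb φ J hX ⟨_, hW⟩ v : Fin 100) : ℕ) = σ v := by
  rw [hom_apply]
  have h1 : O1.testBit (lane v) = true := Lb.lane_mem v v.2
  have h2 : (2 ^ 2048 - 1 : ℕ).testBit (lane v) = true := by
    rw [Nat.testBit_two_pow_sub_one]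
    by_contra hcon
    have h3 : O1 < 2 ^ (lane v) := lt_of_lt_of_le o1_lt (Nat.pow_le_pow_right (by norm_num) (by simpa using hcon))
    rw [Nat.testBit_lt_two_pow h3] at h1
    exact absurd h1 (by decide)
  have h3 : lv L (lane v) = v := Lb.lab_lane v v.2
  have h4 := labK_spec hok h (by decide) hσ h2 h1 (by rw [h3]; exact v.2)
  change lv L (φ (W.eval (C.x HL)) (lane v)) = σ v
  rw [phi_eval hφ, h4, h3]

end

theorem main (H : Subgroup (CoxPresented Suz.Gen Suz.edges Suz.extra)) (hH : H = Subgroup.closure (wset (C.x HL) WS)) :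
    ∃ D : Subgroup H, IsCoatom D ∧ Nonempty (D ≃* J2) ∧
      ∀ x : H, x ∉ D → IsCoatom ((D ⊓ D.map (MulAut.conj x).toMonoidHom).subgroupOf D) := by
  obtain ⟨hsimp, hcard, φ, hφ, hinj, hbase⟩ := SuzOrd.main
  have hidx : H.index = 1782 := (Cfsg.Agent.Lib.SuzAIdx.main H hH).1
  have hcH : Nat.card H = 251596800 := by
    have h1 := H.card_mul_index
    rw [hidx, hcard] at h1
    omega
  have hOH : ∀ j, (∃ g ∈ H, φ g 995 = j) ↔ OM.testBit j = true := by
    intro j
    rw [hH]
    exact orbit_lanes c_nets hφ x_iv WS stH h_inv h_reach j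
  set J := Subgroup.closure (wset (C.x HL) W0) with hJ
  have hJH : J ≤ H := by
    rw [hJ, hH]
    apply Subgroup.closure_mono
    rintro _ ⟨W, hW, rfl⟩
    refine ⟨W, ?_, rfl⟩
    revert W hW
    decide
  have hJf : ∀ g ∈ J, φ g 995 = 995 := fix_lane c_nets hφ x_iv W0 f0
  have hJS : J ≤ stab φ H 995 := fun g hg => ⟨hJH hg, hJf g hg⟩
  have hOJ1 : ∀ j, (∃ g ∈ J, φ g 47 = j) ↔ O1.testBit j = true := by
    intro j
    rw [← m00]
    exact orbit_lanes c_nets hφ x_iv W0 (s0 0) (i0 0) (r0 0) j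
  have hOJ3 : ∀ j, (∃ g ∈ J, φ g 81 = j) ↔ O3.testBit j = true := by
    intro j
    rw [← m01]
    exact orbit_lanes c_nets hφ x_iv W0 (s0 1) (i0 1) (r0 1) j
  have hX : ∀ g ∈ J, ∀ i ∈ {i | O1.testBit i = true}, φ g i ∈ {i | O1.testBit i = true} := by
    intro g hg i hi
    obtain ⟨h, hh, rfl⟩ := (hOJ1 i).mpr hi
    exact (hOJ1 _).mp ⟨g * h, J.mul_mem hg hh, by rw [map_mul]; rfl⟩
  -- the homomorphism to `Perm (Fin 100)`
  have hJW : ∀ k : Fin 5, (Wd.g k.val).eval (C.x HL) ∈ J := by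
    intro k
    apply Subgroup.subset_closure
    refine ⟨Wd.g k.val, ?_, rfl⟩
    revert k; decide
  have hJV : ∀ k : Fin 5, (v k).eval (C.x HL) ∈ J := by
    have key : ∀ W : Wd, (W.flat iv).all (fun c => Nat.blt c 5) = true → W.eval (C.x HL) ∈ J := by
      intro W hW
      rw [← Wd.eval_flat (C.x HL) iv x_iv W]
      apply Subgroup.list_prod_mem
      intro g hg
      obtain ⟨c, hc, rfl⟩ := List.mem_map.mp hg
      rw [List.all_eq_true] at hW
      have h1 := hW c hc
      rw [Nat.blt_eq] at h1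
      exact hJW ⟨c, h1⟩
    intro k
    apply key
    revert k; decide +kernel
  have e1 : ∀ k : Fin 5, hom Lb φ J hX ⟨_, hJW k⟩ = ((u k).map beP).prod := by
    intro k
    ext x
    rw [hom_word hφ hX (hJW k) (fun v hv => sg_lt _ hv) (t1 k) x, sg_spec]
  have e2 : ∀ k : Fin 5, hom Lb φ J hX ⟨_, hJV k⟩ = beP k := by
    intro k
    ext x
    rw [hom_word hφ hX (hJV k) (fun v _ => ap_lt _ _) (t2 k) x, Is_gen]
  have hrange : (hom Lb φ J hX).range = P100 := by
    apply le_antisymm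
    · rintro _ ⟨⟨g, hg⟩, rfl⟩
      have key : ∀ g (hg : g ∈ J), hom Lb φ J hX ⟨g, hg⟩ ∈ P100 := by
        intro g hg
        induction hg using Subgroup.closure_induction with
        | mem g hg' =>
          obtain ⟨W, hW, rfl⟩ := hg'
          have hk : ∃ k : Fin 5, W = Wd.g k.val := by
            simp only [W0, List.mem_cons, List.not_mem_nil, or_false] at hW
            rcases hW with rfl | rfl | rfl | rfl | rfl
            · exact ⟨0, rfl⟩
            · exact ⟨1, rfl⟩
            · exact ⟨2, rfl⟩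
            · exact ⟨3, rfl⟩
            · exact ⟨4, rfl⟩
          obtain ⟨k, rfl⟩ := hk
          rw [e1 k]
          apply Subgroup.list_prod_mem
          intro y hy
          obtain ⟨c, _, rfl⟩ := List.mem_map.mp hy
          exact Subgroup.subset_closure ⟨c, rfl⟩
        | one => exact (map_one (hom Lb φ J hX)).symm ▸ P100.one_mem
        | mul a b ha hb iha ihb =>
          have := P100.mul_mem iha ihb
          rw [← map_mul] at this
          exact this
        | inv a ha iha =>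
          have := P100.inv_mem iha
          rw [← map_inv] at this
          exact this
      exact key g hg
    · unfold P100
      rw [Subgroup.closure_le]
      rintro _ ⟨k, rfl⟩
      exact ⟨_, e2 k⟩
  have hcS : Nat.card (stab φ H 995) = 604800 := by
    have h1 := relIndex_stab φ H 995
    have h2 : orb φ H 995 = {j | OM.testBit j = true} := Set.ext hOH
    rw [h2, ncard_bits om_lt, om_pop] at h1
    have h3 := Subgroup.card_mul_index ((stab φ H 995).subgroupOf H)
    have h4 : ((stab φ H 995).subgroupOf H).index = 416 := h1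
    rw [h4, hcH, Nat.card_congr (Subgroup.subgroupOfEquivOfLe (stab_le φ H 995)).toEquiv] at h3
    omega
  have hfS : Finite (stab φ H 995) := Nat.finite_of_card_ne_zero (by rw [hcS]; norm_num)
  have hfJ : Finite J := Finite.of_injective (Subgroup.inclusion hJS) (Subgroup.inclusion_injective _)
  have hcP : Nat.card (hom Lb φ J hX).range = 604800 := by
    rw [hrange]; exact H58J2.card_P100
  have hcJ : 604800 ≤ Nat.card J := by
    rw [← hcP]
    exact Nat.card_le_card_of_surjective _ (hom Lb φ J hX).rangeRestrict_surjective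
  have hJeq : J = stab φ H 995 := by
    apply Subgroup.eq_of_le_of_card_ge hJS
    rw [hcS]; exact hcJ
  have hcJ' : Nat.card J = 604800 := by rw [hJeq, hcS]
  have hbij : Function.Bijective (hom Lb φ J hX).rangeRestrict := by
    refine (Nat.bijective_iff_surjective_and_card _).mpr ⟨(hom Lb φ J hX).rangeRestrict_surjective, ?_⟩
    rw [hcJ', hcP]
  have eJ : J ≃* J2 := (MulEquiv.ofBijective _ hbij).trans
    ((MulEquiv.subgroupCongr hrange).trans H58J2.equivP.symm)
  have hW0H : ∀ W ∈ W0, W.eval (C.x HL) ∈ H := fun W hW => hJH (Subgroup.subset_closure ⟨W, hW, rfl⟩)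
  have keyJ : ∀ W : Wd, (W.flat iv).all (fun c => Nat.blt c 5) = true → W.eval (C.x HL) ∈ J := by
    intro W hW
    rw [← Wd.eval_flat (C.x HL) iv x_iv W]
    apply Subgroup.list_prod_mem
    intro g hg
    obtain ⟨c, hc, rfl⟩ := List.mem_map.mp hg
    rw [List.all_eq_true] at hW
    have h1 := hW c hc
    rw [Nat.blt_eq] at h1
    exact hJW ⟨c, h1⟩
  have hm0 : MaxIn (stab φ H 995) H :=
    maxIn_masks φ c_nets hφ x_iv (n := 416) (by norm_num) hOH om_lt om_pop W0 hW0H f0 p0 M0 z0 s0 i0 r0 c0 u0 d0 q0 a0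
  have hm1 : MaxIn (stab φ J 47) J :=
    maxIn_masks φ c_nets hφ x_iv (n := 100) (by norm_num) hOJ1 o1_lt o1_pop W1
      (fun W hW => keyJ W (by revert W hW; decide +kernel)) f1 p1 M1 z1 s1 i1 r1 c1 u1 d1 q1 a1
  have hm2 : MaxIn (stab φ J 81) J :=
    maxIn_masks φ c_nets hφ x_iv (n := 315) (by norm_num) hOJ3 o3_lt o3_pop W2
      (fun W hW => keyJ W (by revert W hW; decide +kernel)) f2 p2 M2 z2 s2 i2 r2 c2 u2 d2 q2 a2
  have hE := ext_prim φ hm0 (r := 2) (fun i => p0 i) (by
    intro g hg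
    have h1 := (hOH _).mp ⟨g, hg, rfl⟩
    rw [← u0, testBit_unionF] at h1
    rcases h1 with h1 | ⟨i, hi⟩
    · exact Or.inl h1
    · right
      refine ⟨i, ?_⟩
      obtain ⟨d, hd, h2⟩ := (orbit_lanes c_nets hφ x_iv W0 (s0 i) (i0 i) (r0 i) _).mpr hi
      exact ⟨d, hJS hd, h2⟩) (by
    intro i
    rw [← hJeq]
    fin_cases i
    · exact hm1
    · exact hm2)
  refine ⟨(stab φ H 995).subgroupOf H, hE.1, ?_, hE.2⟩
  exact ⟨(Subgroup.subgroupOfEquivOfLe (stab_le φ H 995)).trans ((MulEquiv.subgroupCongr hJeq.symm).trans eJ)⟩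

end Cfsg.Agent.Lib.G2J2
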