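import Cfsg.Prelude.Def_Steinberg
import Cfsg.Prelude.Def_ChevG2
import Cfsg.Agent.Lib.K4
import Mathlib.GroupTheory.PresentedGroup
import Mathlib.Data.ZMod.Basic
import Mathlib.Algebra.CharP.Two
import Mathlib.Tactic

/-!
# The 6-dimensional module of `G₂(4)` (as an elementary abelian group of order `2^12`)

The root elements act on `Fin 12 → ZMod 2` (six coordinates in the field with four elements, two bits each) by
short lists of elementary bit operations; Steinberg's relations are checked by the kernel.
-/

set_option autoImplicit false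

namespace Cfsg.Agent.Lib.G2Mod69

open Cfsg.Lie Cfsg.Agent.Lib.K4

/-- the module -/
abbrev V : Type := Fin 12 → ZMod 2

/-- bit operations: add the second coordinate to the first one -/
abbrev Ops : Type := List (Fin 12 × Fin 12)

/-- scalar multiplication by `c` from coordinate `j` into coordinate `i` -/
def sc (c : K4) (i j : Fin 6) : Ops :=
  let a : Fin 12 := ⟨2 * i.val, by have := i.isLt; omega⟩
  let a' : Fin 12 := ⟨2 * i.val + 1, by have := i.isLt; omega⟩
  let b : Fin 12 := ⟨2 * j.val, by have := j.isLt; omega⟩
  let b' : Fin 12 := ⟨2 * j.val + 1, by have := j.isLt; omega⟩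
  match (c : Fin 4).val with
  | 0 => []
  | 1 => [(a, b), (a', b')]
  | 2 => [(a, b'), (a', b), (a', b')]
  | _ => [(a, b), (a, b'), (a', b)]

/-- the entries of the root elements: `(i, j, true)` for `t`, `(i, j, false)` for `t²` -/
def ent : ℕ → List (Fin 6 × Fin 6 × Bool)
  | 0 => [(5, 1, true), (4, 2, true)]
  | 1 => [(5, 0, true), (3, 2, true)]
  | 2 => [(4, 0, true), (3, 1, true), (5, 2, false)]
  | 3 => [(4, 1, false), (0, 2, true), (5, 3, true)]
  | 4 => [(3, 0, false), (1, 2, true), (5, 4, true)]
  | 5 => [(0, 1, true), (4, 3, true)]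
  | 6 => [(1, 0, true), (3, 4, true)]
  | 7 => [(2, 1, true), (0, 3, false), (4, 5, true)]
  | 8 => [(2, 0, true), (1, 4, false), (3, 5, true)]
  | 9 => [(1, 3, true), (0, 4, true), (2, 5, false)]
  | 10 => [(2, 3, true), (0, 5, true)]
  | 11 => [(2, 4, true), (1, 5, true)]
  | _ => []

/-- the operations of the root element `x_r(t)` -/
def ops (r : ℕ) (t : K4) : Ops := (ent r).flatMap fun e => sc (if e.2.2 then t else t * t) e.1 e.2.1

/-- the operations of a word (the last letter acts first) -/
def opsW (w : List (ℕ × K4)) : Ops := w.reverse.flatMap fun p => ops p.1 p.2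

def stL (l : List ℕ) (p : Fin 12 × Fin 12) : List ℕ := l.set p.1 (Nat.xor (l.getD p.1 0) (l.getD p.2 0))
def runL (o : Ops) (l : List ℕ) : List ℕ := o.foldl stL l
def stV (v : V) (p : Fin 12 × Fin 12) : V := Function.update v p.1 (v p.1 + v p.2)
def runV (o : Ops) (v : V) : V := o.foldl stV v

/-- the linear functional coded by a number -/
def ev (v : V) (m : ℕ) : ZMod 2 := ∑ k : Fin 12, if m.testBit k then v k else 0

theorem ev_xor (v : V) (a b : ℕ) : ev v (Nat.xor a b) = ev v a + ev v b := by
  unfold ev
  rw [← Finset.sum_add_distrib]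
  refine Finset.sum_congr rfl fun k _ => ?_
  have h : (Nat.xor a b).testBit k = (a.testBit k ^^ b.testBit k) := Nat.testBit_xor a b k
  rw [h]
  cases a.testBit k <;> cases b.testBit k <;> simp [CharTwo.add_self_eq_zero]

theorem ev_zero (v : V) : ev v 0 = 0 := by simp [ev]

theorem ev_pow (v : V) (i : Fin 12) : ev v (2 ^ (i : ℕ)) = v i := by
  unfold ev
  rw [Finset.sum_eq_single i]
  · simp [Nat.testBit_two_pow_self]
  · intro b _ hb
    rw [Nat.testBit_two_pow_of_ne (fun h => hb (Fin.ext h.symm))]
    simp
  · intro h; exact absurd (Finset.mem_univ i) h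

/-- the vector obtained from a list of codes -/
def vl (v : V) (l : List ℕ) : V := fun i => ev v (l.getD i 0)

theorem stL_length (l : List ℕ) (p : Fin 12 × Fin 12) : (stL l p).length = l.length := by simp [stL]

theorem runL_length (o : Ops) (l : List ℕ) : (runL o l).length = l.length := by
  induction o generalizing l with
  | nil => rfl
  | cons p o ih => exact (ih (stL l p)).trans (stL_length l p)

theorem vl_stL (v : V) (l : List ℕ) (hl : l.length = 12) (p : Fin 12 × Fin 12) : vl v (stL l p) = stV (vl v l) p := by
  funext i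
  unfold vl stL stV
  by_cases h : i = p.1
  · subst h
    rw [Function.update_self]
    have hlt : (p.1 : ℕ) < l.length := by rw [hl]; exact p.1.isLt
    rw [List.getD_eq_getElem?_getD, List.getElem?_set_self hlt]
    exact ev_xor v _ _
  · rw [Function.update_of_ne h]
    rw [List.getD_eq_getElem?_getD, List.getElem?_set_ne (fun h' => h (Fin.ext h'.symm)), ← List.getD_eq_getElem?_getD]

theorem vl_runL (v : V) (o : Ops) (l : List ℕ) (hl : l.length = 12) : vl v (runL o l) = runV o (vl v l) := by
  induction o generalizing l with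
  | nil => rfl
  | cons p o ih =>
    show vl v (runL o (stL l p)) = runV o (stV (vl v l) p)
    rw [ih _ ((stL_length l p).trans hl), vl_stL v l hl]

/-- the codes of the identity -/
def I12 : List ℕ := [1, 2, 4, 8, 16, 32, 64, 128, 256, 512, 1024, 2048]

theorem vl_I12 (v : V) : vl v I12 = v := by
  funext i
  have : I12.getD i 0 = 2 ^ (i : ℕ) := by fin_cases i <;> rfl
  unfold vl
  rw [this, ev_pow]

theorem runV_eq (o : Ops) (v : V) : runV o v = vl v (runL o I12) := by
  rw [vl_runL v o I12 rfl, vl_I12]

theorem runV_congr {o o' : Ops} (h : runL o I12 = runL o' I12) (v : V) : runV o v = runV o' v := by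
  rw [runV_eq, runV_eq, h]

theorem stV_add (v w : V) (p : Fin 12 × Fin 12) : stV (v + w) p = stV v p + stV w p := by
  funext i
  unfold stV
  by_cases h : i = p.1
  · subst h
    simp only [Function.update_self, Pi.add_apply]
    ring
  · simp only [Function.update_of_ne h, Pi.add_apply]

theorem runV_add (o : Ops) (v w : V) : runV o (v + w) = runV o v + runV o w := by
  induction o generalizing v w with
  | nil => rfl
  | cons p o ih =>
    show runV o (stV (v + w) p) = runV o (stV v p) + runV o (stV w p)
    rw [stV_add, ih]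

theorem runV_append (o o' : Ops) (v : V) : runV (o ++ o') v = runV o' (runV o v) := by
  unfold runV; rw [List.foldl_append]

/-- kernel check of an equality of words -/
def eqW (w w' : List (ℕ × K4)) : Bool := decide (runL (opsW w) I12 = runL (opsW w') I12)

theorem eqW_spec {w w' : List (ℕ × K4)} (h : eqW w w' = true) (v : V) : runV (opsW w) v = runV (opsW w') v :=
  runV_congr (of_decide_eq_true h) v

theorem chk1 : ∀ (r : Fin 12) (t u : K4), eqW [(r.val, t), (r.val, u)] [(r.val, t + u)] = true := by decide +kernel

theorem chk2 : ∀ (r s : Fin 12) (t u : K4), (s.val = r.val || s.val = chevG2.neg r.val ||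
    eqW [(s.val, u), (r.val, t)] ([(r.val, t), (s.val, u)] ++ chevG2.commWord K4 r.val s.val t u)) = true := by
  decide +kernel

theorem chk3 : ∀ (r : Fin 12) (t u : K4), (t = 0 || u = 0 ||
    eqW (chevG2.hWord r.val t ++ chevG2.hWord r.val u) (chevG2.hWord r.val (t * u))) = true := by
  decide +kernel

end Cfsg.Agent.Lib.G2Mod69
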