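import Cfsg.Agent.Lib.G2Mod69
import Cfsg.Agent.Lib.G2K4
import Cfsg.Agent.Lib.ChevCongr
import Cfsg.Agent.Lib.PrimeGraphExt
import Cfsg.Agent.Lib.StPres
import Cfsg.Agent.Lib.StCenter

/-!
# `G₂(4)` acting on its 6-dimensional module: elements of order 7 and 13 are fixed-point-free
-/

set_option autoImplicit false

namespace Cfsg.Agent.Lib.G2Mod69

open Cfsg.Lie Cfsg.Agent.Lib.K4

/-- the Steinberg group of type `G₂` over the field with four elements -/
abbrev SG : Type := chevG2.SteinbergGroup K4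

theorem ops_out {r : ℕ} (h : ¬ r < 12) (t : K4) : ops r t = [] := by
  obtain ⟨k, rfl⟩ := Nat.exists_eq_add_of_le (not_lt.1 h)
  have : ent (12 + k) = [] := by rw [Nat.add_comm]; rfl
  unfold ops
  rw [this]; rfl

theorem chk0 : ∀ (r : Fin 12) (t : K4), eqW [(r.val, t), (r.val, t)] [] = true := by decide +kernel

theorem opsW_cons (p : ℕ × K4) (w : List (ℕ × K4)) : opsW (p :: w) = opsW w ++ ops p.1 p.2 := by
  simp [opsW, List.reverse_cons, List.flatMap_append]

theorem opsW_nil : opsW [] = [] := rfl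

theorem sq (r : ℕ) (t : K4) (v : V) : runV (ops r t) (runV (ops r t) v) = v := by
  by_cases h : r < 12
  · have := eqW_spec (chk0 ⟨r, h⟩ t) v
    rw [opsW_cons, opsW_cons, opsW_nil, List.nil_append, runV_append] at this
    exact this
  · rw [ops_out h]; rfl

/-- the root elements acting on the module -/
def A (r : ℕ) (t : K4) : V ≃ₗ[ZMod 2] V where
  toFun := runV (ops r t)
  invFun := runV (ops r t)
  left_inv := sq r t
  right_inv := sq r t
  map_add' := runV_add _
  map_smul' := fun c v => by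
    have h0 : runV (ops r t) 0 = 0 := by
      have := runV_add (ops r t) 0 0
      rw [add_zero] at this
      exact left_eq_add.1 this
    have hc : c = 0 ∨ c = 1 := by revert c; decide
    rcases hc with rfl | rfl
    · rw [zero_smul, h0]; simp
    · rw [one_smul]; simp

theorem A_apply (r : ℕ) (t : K4) (v : V) : A r t v = runV (ops r t) v := rfl

theorem prod_apply (w : List (ℕ × K4)) (v : V) : (w.map fun p => A p.1 p.2).prod v = runV (opsW w) v := by
  induction w with
  | nil => rfl
  | cons p w ih =>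
    rw [List.map_cons, List.prod_cons, opsW_cons, runV_append, LinearEquiv.mul_apply, ih, A_apply]

theorem prod_congr {w w' : List (ℕ × K4)} (h : eqW w w' = true) :
    (w.map fun p => A p.1 p.2).prod = (w'.map fun p => A p.1 p.2).prod := by
  apply LinearEquiv.ext
  intro v
  rw [prod_apply, prod_apply]
  exact eqW_spec h v

theorem A_out {r : ℕ} (h : ¬ r < 12) (t : K4) : A r t = 1 := by
  apply LinearEquiv.ext
  intro v
  rw [A_apply, ops_out h]; rfl

/-- the images of the generators -/
def FA : Fin chevG2.nroots × K4 → (V ≃ₗ[ZMod 2] V) := fun p => A p.1 p.2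

theorem lift_stX (r : ℕ) (t : K4) : FreeGroup.lift FA (chevG2.stX r t) = A r t := by
  unfold ChevalleyDatum.stX
  by_cases h : r < chevG2.nroots
  · rw [dif_pos h, FreeGroup.lift_apply_of]; rfl
  · rw [dif_neg h, map_one]
    exact (A_out h t).symm

theorem lift_stWord (w : List (ℕ × K4)) : FreeGroup.lift FA (chevG2.stWord w) = (w.map fun p => A p.1 p.2).prod := by
  unfold ChevalleyDatum.stWord
  rw [map_list_prod, List.map_map]
  congr 1
  apply List.map_congr_left
  intro p _
  exact lift_stX p.1 p.2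

theorem rels : ∀ g ∈ chevG2.steinbergRels K4, FreeGroup.lift FA g = 1 := by
  rintro g ((⟨r, t, u, hr, rfl⟩ | ⟨r, s, t, u, hr, hs, h1, h2, rfl⟩) | ⟨r, t, u, hr, ht, hu, rfl⟩)
  · rw [map_mul, map_mul, map_inv, lift_stX, lift_stX, lift_stX, mul_inv_eq_one]
    have := prod_congr (chk1 ⟨r, hr⟩ t u)
    simpa using this
  · rw [map_mul, map_mul, map_mul, map_mul, map_inv, map_inv, map_inv, lift_stX, lift_stX, lift_stWord, mul_inv_eq_one]
    have h := chk2 ⟨r, hr⟩ ⟨s, hs⟩ t u
    have h3 : eqW [(s, u), (r, t)] ([(r, t), (s, u)] ++ chevG2.commWord K4 r s t u) = true := by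
      simp only [Bool.or_eq_true, decide_eq_true_eq] at h
      rcases h with (h | h) | h
      · exact absurd h h1
      · exact absurd h h2
      · exact h
    have h4 := prod_congr h3
    rw [List.map_append, List.prod_append] at h4
    simp only [List.map_cons, List.map_nil, List.prod_cons, List.prod_nil, mul_one] at h4
    rw [mul_assoc, h4]
    group
  · unfold ChevalleyDatum.stH
    rw [map_mul, map_mul, map_inv, lift_stWord, lift_stWord, lift_stWord, mul_inv_eq_one]
    have h := chk3 ⟨r, hr⟩ t u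
    have h3 : eqW (chevG2.hWord r t ++ chevG2.hWord r u) (chevG2.hWord r (t * u)) = true := by
      simp only [Bool.or_eq_true, decide_eq_true_eq] at h
      rcases h with (h | h) | h
      · exact absurd h ht
      · exact absurd h hu
      · exact h
    have h4 := prod_congr h3
    rw [List.map_append, List.prod_append] at h4
    exact h4

/-- the representation of the Steinberg group -/
def Φ : SG →* (V ≃ₗ[ZMod 2] V) := PresentedGroup.toGroup rels

/-- the element given by a word -/
def el (w : List (ℕ × K4)) : SG := PresentedGroup.mk (chevG2.steinbergRels K4) (chevG2.stWord w)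

theorem Φ_el (w : List (ℕ × K4)) (v : V) : Φ (el w) v = runV (opsW w) v := by
  have : Φ (el w) = FreeGroup.lift FA (chevG2.stWord w) := rfl
  rw [this, lift_stWord, prod_apply]

theorem Φ_el_pow (w : List (ℕ × K4)) (n : ℕ) (v : V) : Φ (el w ^ n) v = (runV (opsW w))^[n] v := by
  induction n with
  | zero => rw [pow_zero, map_one]; rfl
  | succ n ih =>
    rw [pow_succ', map_mul, LinearEquiv.mul_apply, ih, Φ_el, Function.iterate_succ_apply']

def Z12 : List ℕ := [0, 0, 0, 0, 0, 0, 0, 0, 0, 0, 0, 0]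

/-- powers and their sums, on codes -/
def geo (o : Ops) : ℕ → List ℕ × List ℕ
  | 0 => (I12, Z12)
  | n + 1 => (runL o (geo o n).1, List.zipWith Nat.xor (geo o n).1 (geo o n).2)

theorem geo_len (o : Ops) (n : ℕ) : (geo o n).1.length = 12 ∧ (geo o n).2.length = 12 := by
  induction n with
  | zero => exact ⟨rfl, rfl⟩
  | succ n ih => exact ⟨(runL_length o _).trans ih.1, by simp [geo, ih.1, ih.2]⟩

theorem vl_zip (v : V) (l s : List ℕ) (hl : l.length = 12) (hs : s.length = 12) :
    vl v (List.zipWith Nat.xor l s) = vl v l + vl v s := by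
  funext i
  show ev v _ = ev v _ + ev v _
  rw [← ev_xor]
  congr 1
  have h1 : (i : ℕ) < l.length := by rw [hl]; exact i.isLt
  have h2 : (i : ℕ) < s.length := by rw [hs]; exact i.isLt
  have h3 : (i : ℕ) < (List.zipWith Nat.xor l s).length := by rw [List.length_zipWith]; exact lt_min h1 h2
  rw [List.getD_eq_getElem _ _ h3, List.getD_eq_getElem _ _ h1, List.getD_eq_getElem _ _ h2, List.getElem_zipWith]

theorem geo_one (o : Ops) (n : ℕ) (v : V) : vl v (geo o n).1 = (runV o)^[n] v := by
  induction n with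
  | zero => exact vl_I12 v
  | succ n ih =>
    show vl v (runL o (geo o n).1) = _
    rw [vl_runL v o _ (geo_len o n).1, ih, Function.iterate_succ_apply']

theorem geo_two (o : Ops) (n : ℕ) (v : V) : vl v (geo o n).2 = ∑ j ∈ Finset.range n, (runV o)^[j] v := by
  induction n with
  | zero =>
    show vl v Z12 = _
    rw [Finset.range_zero, Finset.sum_empty]
    funext i
    have : Z12.getD i 0 = 0 := by fin_cases i <;> rfl
    show ev v _ = 0
    rw [this, ev_zero]
  | succ n ih =>
    show vl v (List.zipWith Nat.xor (geo o n).1 (geo o n).2) = _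
    rw [vl_zip v _ _ (geo_len o n).1 (geo_len o n).2, ih, geo_one, Finset.sum_range_succ, add_comm]

theorem ev_single (k : Fin 12) (m : ℕ) : ev (Pi.single k 1) m = if m.testBit k then 1 else 0 := by
  unfold ev
  rw [Finset.sum_eq_single k]
  · simp
  · intro b _ hb
    rw [Pi.single_eq_of_ne hb]
    simp
  · intro h; exact absurd (Finset.mem_univ k) h

/-- if a power acts trivially, the codes are those of the identity -/
theorem geo_trivial {o : Ops} {n : ℕ} (h : ∀ v, (runV o)^[n] v = v) :
    ∀ i k : Fin 12, ((geo o n).1.getD i 0).testBit k = decide (i = k) := by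
  intro i k
  have h1 := congrFun (h (Pi.single k 1)) i
  rw [← geo_one] at h1
  have h2 : vl (Pi.single k 1) (geo o n).1 i = if ((geo o n).1.getD i 0).testBit k then 1 else 0 := ev_single k _
  rw [h2] at h1
  by_cases hik : i = k
  · subst hik
    rw [Pi.single_eq_same] at h1
    by_contra hc
    rw [decide_eq_true rfl, Bool.not_eq_true] at hc
    rw [hc] at h1
    simp at h1
  · rw [Pi.single_eq_of_ne hik] at h1
    rw [decide_eq_false hik]
    by_contra hc
    rw [Bool.not_eq_false] at hc
    rw [hc] at h1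
    simp at h1

def w6 : List (ℕ × K4) := [(11, (3 : Fin 4)), (1, (3 : Fin 4)), (7, (1 : Fin 4))]
def w10 : List (ℕ × K4) := [(1, (2 : Fin 4)), (2, (2 : Fin 4)), (10, (2 : Fin 4))]
def w7 : List (ℕ × K4) := [(2, (1 : Fin 4)), (7, (2 : Fin 4)), (6, (2 : Fin 4))]
def w13 : List (ℕ × K4) := [(0, (3 : Fin 4)), (4, (3 : Fin 4)), (2, (2 : Fin 4)), (10, (2 : Fin 4))]

theorem g7 : geo (opsW w7) 7 = (I12, Z12) := by decide +kernel
theorem g13 : geo (opsW w13) 13 = (I12, Z12) := by decide +kernel
theorem g6 : (geo (opsW w6) 6).1 = I12 := by decide +kernel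
theorem g10 : (geo (opsW w10) 10).1 = I12 := by decide +kernel
theorem g62 : ¬ ∀ i k : Fin 12, ((geo (opsW w6) 2).1.getD i 0).testBit k = decide (i = k) := by decide +kernel
theorem g63 : ¬ ∀ i k : Fin 12, ((geo (opsW w6) 3).1.getD i 0).testBit k = decide (i = k) := by decide +kernel
theorem g102 : ¬ ∀ i k : Fin 12, ((geo (opsW w10) 2).1.getD i 0).testBit k = decide (i = k) := by decide +kernel
theorem g105 : ¬ ∀ i k : Fin 12, ((geo (opsW w10) 5).1.getD i 0).testBit k = decide (i = k) := by decide +kernel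

theorem sum_zero (w : List (ℕ × K4)) (n : ℕ) (h : geo (opsW w) n = (I12, Z12)) (v : V) :
    ∑ j ∈ Finset.range n, Φ (el w ^ j) v = 0 := by
  have h1 := geo_two (opsW w) n v
  have h0 := geo_two (opsW w) 0 v
  rw [h] at h1
  rw [Finset.range_zero, Finset.sum_empty] at h0
  rw [show (geo (opsW w) 0).2 = Z12 from rfl] at h0
  rw [Finset.sum_congr rfl fun j _ => Φ_el_pow w j v, ← h1, h0]

/-- the Steinberg group is the Chevalley group -/
theorem exists_equiv : Nonempty (SG ≃* chevG2.group K4) := by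
  obtain ⟨θ, hs, hk, -⟩ := StPres.ker_eq_center (K := K4) (D := chevG2) (by simp)
  have hc : Subgroup.center SG = ⊥ := StCenter.center_trivial (K := K4) (D := chevG2) (by simp)
  rw [hc] at hk
  exact ⟨MulEquiv.ofBijective θ ⟨(MonoidHom.ker_eq_bot_iff θ).1 hk, hs⟩⟩

instance : IsSimpleGroup SG := by
  obtain ⟨e⟩ := exists_equiv
  have : IsSimpleGroup (chevG2.group K4) := G2K4.simple.1
  exact e.isSimpleGroup

theorem card_SG : Nat.card SG = 251596800 := by
  obtain ⟨e⟩ := exists_equiv
  rw [Nat.card_congr e.toEquiv, G2K4.card]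

instance : Finite SG := Nat.finite_of_card_ne_zero (by rw [card_SG]; norm_num)

theorem natCast_smul_V (n : ℕ) (hn : Odd n) (v : V) : n • v = v := by
  obtain ⟨k, rfl⟩ := hn
  funext i
  simp only [Pi.smul_apply, nsmul_eq_mul]
  push_cast
  have h2 : (2 : ZMod 2) = 0 := rfl
  rw [h2]; ring

theorem Φ_inj : Function.Injective Φ := by
  rw [← MonoidHom.ker_eq_bot_iff]
  rcases (inferInstance : (Φ.ker).Normal).eq_bot_or_eq_top with h | h
  · exact h
  · exfalso
    have h1 : ∀ x : SG, Φ x = 1 := fun x => by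
      have : x ∈ Φ.ker := by rw [h]; trivial
      exact this
    have h2 := sum_zero w13 13 g13 (Pi.single 0 1)
    rw [Finset.sum_congr rfl fun j _ => by rw [h1 (el w13 ^ j)]] at h2
    rw [Finset.sum_const, Finset.card_range] at h2
    have h3 : (1 : (V ≃ₗ[ZMod 2] V)) (Pi.single 0 1) = Pi.single 0 1 := rfl
    rw [h3, natCast_smul_V 13 (by decide)] at h2
    have h4 := congrFun h2 0
    rw [Pi.single_eq_same] at h4
    exact absurd h4 (by decide)

theorem pow_eq_one {w : List (ℕ × K4)} {n : ℕ} (h : (geo (opsW w) n).1 = I12) : el w ^ n = 1 := by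
  apply Φ_inj
  rw [map_one]
  apply LinearEquiv.ext
  intro v
  rw [Φ_el_pow, ← geo_one, h, vl_I12]
  rfl

theorem pow_ne_one {w : List (ℕ × K4)} {n : ℕ}
    (h : ¬ ∀ i k : Fin 12, ((geo (opsW w) n).1.getD i 0).testBit k = decide (i = k)) : el w ^ n ≠ 1 := by
  intro h1
  apply h
  apply geo_trivial
  intro v
  rw [← Φ_el_pow, h1, map_one]
  rfl

theorem exists_six : ∃ g : SG, orderOf g = 2 * 3 := by
  refine ⟨el w6, orderOf_eq_of_pow_and_pow_div_prime (by norm_num) (pow_eq_one g6) ?_⟩
  intro p hp hd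
  rcases (Nat.Prime.dvd_mul hp).1 hd with h | h
  · rw [(Nat.prime_dvd_prime_iff_eq hp Nat.prime_two).1 h]; exact pow_ne_one g63
  · rw [(Nat.prime_dvd_prime_iff_eq hp Nat.prime_three).1 h]; exact pow_ne_one g62

theorem exists_ten : ∃ g : SG, orderOf g = 2 * 5 := by
  refine ⟨el w10, orderOf_eq_of_pow_and_pow_div_prime (by norm_num) (pow_eq_one g10) ?_⟩
  intro p hp hd
  rcases (Nat.Prime.dvd_mul hp).1 hd with h | h
  · rw [(Nat.prime_dvd_prime_iff_eq hp Nat.prime_two).1 h]; exact pow_ne_one g105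
  · rw [(Nat.prime_dvd_prime_iff_eq hp Nat.prime_five).1 h]; exact pow_ne_one g102

theorem exists_conj {G : Type*} [Group G] [Finite G] {r : ℕ} (hr : r.Prime) (h2 : ¬ r ^ 2 ∣ Nat.card G)
    {x g : G} (hx : orderOf x = r) (hg : orderOf g = r) : ∃ c : G, c * g * c⁻¹ ∈ Subgroup.zpowers x := by
  have : Fact r.Prime := ⟨hr⟩
  have key : ∀ y : G, orderOf y = r → ∃ Q : Sylow r G, (Q : Subgroup G) = Subgroup.zpowers y := by
    intro y hy
    have hp : IsPGroup r (Subgroup.zpowers y) := IsPGroup.of_card (n := 1) (by rw [Nat.card_zpowers, hy, pow_one])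
    obtain ⟨Q, hQ⟩ := hp.exists_le_sylow
    refine ⟨Q, ?_⟩
    symm
    apply Subgroup.eq_of_le_of_card_ge hQ
    obtain ⟨k, hk⟩ := (IsPGroup.iff_card.1 Q.2)
    rw [Nat.card_zpowers, hy, hk]
    have hk2 : k ≤ 1 := by
      by_contra hc
      apply h2
      calc r ^ 2 ∣ r ^ k := pow_dvd_pow r (by omega)
        _ = Nat.card Q := hk.symm
        _ ∣ Nat.card G := Subgroup.card_subgroup_dvd_card _
    calc r ^ k ≤ r ^ 1 := Nat.pow_le_pow_right hr.pos hk2
      _ = r := pow_one r
  obtain ⟨P, hP⟩ := key x hx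
  obtain ⟨Q, hQ⟩ := key g hg
  obtain ⟨c, hc⟩ := MulAction.exists_smul_eq G Q P
  refine ⟨c, ?_⟩
  have h3 : (P : Subgroup G) = ((c • Q : Sylow r G) : Subgroup G) := by rw [hc]
  rw [← hP, h3]
  rw [Sylow.coe_subgroup_smul, hQ]
  exact ⟨g, Subgroup.mem_zpowers g, rfl⟩

theorem fpf {r : ℕ} (hr : r.Prime) (h2 : ¬ r ^ 2 ∣ Nat.card SG) (hodd : Odd r) {x : SG} (hx : orderOf x = r)
    (hsum : ∀ v, ∑ j ∈ Finset.range r, Φ (x ^ j) v = 0) (g : SG) (hg : orderOf g = r) (v : V) (hv : Φ g v = v) :
    v = 0 := by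
  obtain ⟨c, hc⟩ := exists_conj hr h2 hx hg
  have h1 : Φ (c * g * c⁻¹) (Φ c v) = Φ c v := by
    rw [map_mul, map_mul, LinearEquiv.mul_apply, LinearEquiv.mul_apply]
    have : Φ c⁻¹ (Φ c v) = v := by rw [← LinearEquiv.mul_apply, ← map_mul, inv_mul_cancel, map_one]; rfl
    rw [this, hv]
  -- x is a power of the conjugate
  have hord : orderOf (c * g * c⁻¹) = r := by rw [← hg]; exact (orderOf_injective (MulAut.conj c).toMonoidHom (MulAut.conj c).injective g)
  have hz : Subgroup.zpowers (c * g * c⁻¹) = Subgroup.zpowers x := by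
    apply Subgroup.eq_of_le_of_card_ge (Subgroup.zpowers_le.2 hc)
    rw [Nat.card_zpowers, Nat.card_zpowers, hord, hx]
  have hxm : x ∈ Subgroup.zpowers (c * g * c⁻¹) := by rw [hz]; exact Subgroup.mem_zpowers x
  have hfix : Φ x (Φ c v) = Φ c v := by
    have : Subgroup.zpowers (c * g * c⁻¹) ≤ (MulAction.stabilizer ((V ≃ₗ[ZMod 2] V)) (Φ c v)).comap Φ := by
      rw [Subgroup.zpowers_le]; exact h1
    exact this hxm
  have hpow : ∀ j, Φ (x ^ j) (Φ c v) = Φ c v := by
    intro j
    induction j with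
    | zero => rw [pow_zero, map_one]; rfl
    | succ j ih => rw [pow_succ, map_mul, LinearEquiv.mul_apply, hfix, ih]
  have h3 := hsum (Φ c v)
  rw [Finset.sum_congr rfl fun j _ => hpow j, Finset.sum_const, Finset.card_range, natCast_smul_V r hodd] at h3
  have h4 : Φ c⁻¹ (Φ c v) = v := by rw [← LinearEquiv.mul_apply, ← map_mul, inv_mul_cancel, map_one]; rfl
  rw [h3, map_zero] at h4
  exact h4.symm

theorem el_ne_one_of_sum {w : List (ℕ × K4)} {n : ℕ} (hn : Odd n) (h : geo (opsW w) n = (I12, Z12)) : el w ≠ 1 := by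
  intro h1
  have h2 := sum_zero w n h (Pi.single 0 1)
  rw [Finset.sum_congr rfl fun j _ => by rw [h1, one_pow, map_one]] at h2
  rw [Finset.sum_const, Finset.card_range] at h2
  have h3 : (1 : (V ≃ₗ[ZMod 2] V)) (Pi.single 0 1) = Pi.single 0 1 := rfl
  rw [h3, natCast_smul_V n hn] at h2
  have h4 := congrFun h2 0
  rw [Pi.single_eq_same] at h4
  exact absurd h4 (by decide)

theorem order_of {w : List (ℕ × K4)} {n : ℕ} (hp : n.Prime) (hn : Odd n) (h : geo (opsW w) n = (I12, Z12)) :
    orderOf (el w) = n :=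
  haveI : Fact n.Prime := ⟨hp⟩
  orderOf_eq_prime (pow_eq_one (by rw [h])) (el_ne_one_of_sum hn h)

theorem main (N : ℕ) : ∃ (H : Type) (_ : Group H) (_ : Finite H), N < Nat.card H ∧ PrimeGraphExt.SameGraph SG H := by
  letI : DistribMulAction SG V := DistribMulAction.compHom V Φ
  have hsm : ∀ (g : SG) (v : V), g • v = Φ g v := fun _ _ => rfl
  refine PrimeGraphExt.unbounded (K := SG) (V := V) 2 Nat.prime_two ?_ ⟨Pi.single 0 1, ?_⟩ ?_ ?_ N
  · intro v; funext i
    simp only [Pi.smul_apply, nsmul_eq_mul]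
    have h2 : ((2 : ℕ) : ZMod 2) = 0 := rfl
    rw [h2, zero_mul]; rfl
  · intro h
    have h4 := congrFun h 0
    rw [Pi.single_eq_same] at h4
    exact absurd h4 (by decide)
  · rw [card_SG]; norm_num
  · intro r hr hr2
    by_cases hd : r ∣ Nat.card SG
    · rw [card_SG, show 251596800 = 2 ^ 12 * 3 ^ 3 * 5 ^ 2 * 7 * 13 by norm_num] at hd
      rcases (Nat.Prime.dvd_mul hr).1 hd with hd | hd
      · rcases (Nat.Prime.dvd_mul hr).1 hd with hd | hd
        · rcases (Nat.Prime.dvd_mul hr).1 hd with hd | hd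
          · rcases (Nat.Prime.dvd_mul hr).1 hd with hd | hd
            · exact absurd ((Nat.prime_dvd_prime_iff_eq hr Nat.prime_two).1 (hr.dvd_of_dvd_pow hd)) hr2
            · rw [(Nat.prime_dvd_prime_iff_eq hr Nat.prime_three).1 (hr.dvd_of_dvd_pow hd)]
              exact Or.inl exists_six
          · rw [(Nat.prime_dvd_prime_iff_eq hr Nat.prime_five).1 (hr.dvd_of_dvd_pow hd)]
            exact Or.inl exists_ten
        · right
          obtain rfl := (Nat.prime_dvd_prime_iff_eq hr (by norm_num)).1 hd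
          intro g hg v hv
          exact fpf hr (by rw [card_SG]; norm_num) (by decide) (order_of hr (by decide) g7) (sum_zero w7 7 g7) g hg v hv
      · right
        obtain rfl := (Nat.prime_dvd_prime_iff_eq hr (by norm_num)).1 hd
        intro g hg v hv
        exact fpf hr (by rw [card_SG]; norm_num) (by decide) (order_of hr (by decide) g13) (sum_zero w13 13 g13) g hg v hv
    · right
      intro g hg
      exact absurd (hg ▸ orderOf_dvd_natCard g) hd

end Cfsg.Agent.Lib.G2Mod69
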