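import Mathlib

/-!
Products of two conjugates of a non-split element of `GL_2(q)` (helper62).
-/

set_option autoImplicit false
set_option maxHeartbeats 400000

namespace Cfsg.Agent.Lib.GL2Prod62

open Matrix Polynomial

variable {F : Type*} [Field F]

/-- companion matrix of `s ^ 2 - t s + n` -/
def cmat (t n : F) : Matrix (Fin 2) (Fin 2) F := !![0, -n; 1, t]

lemma det_cmat (t n : F) : (cmat t n).det = n := by simp [cmat, Matrix.det_fin_two]

lemma trace_cmat (t n : F) : (cmat t n).trace = t := by simp [cmat, Matrix.trace_fin_two]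

/-- non-scalar `2 × 2` matrices are similar to companion matrices -/
lemma exists_conj (M : Matrix (Fin 2) (Fin 2) F) (hM : ∀ c : F, M ≠ c • (1 : Matrix (Fin 2) (Fin 2) F)) :
    ∃ Y : Matrix (Fin 2) (Fin 2) F, Y.det ≠ 0 ∧ M * Y = Y * cmat M.trace M.det := by
  have key : ∀ x y : F, M * !![x, M 0 0 * x + M 0 1 * y; y, M 1 0 * x + M 1 1 * y] =
      !![x, M 0 0 * x + M 0 1 * y; y, M 1 0 * x + M 1 1 * y] * cmat M.trace M.det := by
    intro x y
    ext i j
    fin_cases i <;> fin_cases j <;>
      simp [cmat, Matrix.mul_apply, Fin.sum_univ_two, Matrix.trace_fin_two, Matrix.det_fin_two] <;> ring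
  by_cases h1 : M 1 0 = 0
  · by_cases h2 : M 0 1 = 0
    · have h3 : M 1 1 - M 0 0 ≠ 0 := by
        intro h3
        apply hM (M 0 0)
        ext i j
        fin_cases i <;> fin_cases j
        · simp
        · simp [h2]
        · simp [h1]
        · simp; linear_combination h3
      refine ⟨_, ?_, key 1 1⟩
      rw [Matrix.det_fin_two]
      simp [h1, h2]
      intro h4
      exact h3 h4
    · refine ⟨_, ?_, key 0 1⟩
      rw [Matrix.det_fin_two]
      simp [h2]
  · refine ⟨_, ?_, key 1 0⟩
    rw [Matrix.det_fin_two]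
    simp [h1]

/-- for `n ≠ 0, 1` there is an irreducible polynomial `s ^ 2 - t s + n` with `t ≠ 0` -/
lemma exists_tau [Finite F] {n : F} (hn0 : n ≠ 0) (hn1 : n ≠ 1) : ∃ t : F, t ≠ 0 ∧ ∀ s : F, s * s - t * s + n ≠ 0 := by
  by_contra hcon
  push Not at hcon
  have hex : ∀ t : Fˣ, ∃ s : Fˣ, (s : F) * s - t * s + n = 0 := by
    intro t
    obtain ⟨s, hs⟩ := hcon t t.ne_zero
    have hs0 : s ≠ 0 := by rintro rfl; apply hn0; simpa using hs
    exact ⟨Units.mk0 s hs0, hs⟩
  choose ψ hψ using hex
  have hinj : Function.Injective ψ := by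
    intro t1 t2 h12
    have h1 := hψ t1
    have h2 := hψ t2
    rw [h12] at h1
    have h3 : ((t1 : F) - t2) * ψ t2 = 0 := by linear_combination h2 - h1
    rcases mul_eq_zero.1 h3 with h4 | h4
    · exact Units.ext (sub_eq_zero.1 h4)
    · exact absurd h4 (ψ t2).ne_zero
  have hsurj : Function.Surjective ψ := Finite.surjective_of_injective hinj
  obtain ⟨t, ht⟩ := hsurj 1
  have h1 := hψ t
  rw [ht] at h1
  simp only [Units.val_one] at h1
  -- `t = 1 + n`, the other root is `n`
  obtain ⟨t', ht'⟩ := hsurj (Units.mk0 n hn0)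
  have h2 := hψ t'
  rw [ht'] at h2
  simp only [Units.val_mk0] at h2
  have h3 : (t' : F) = t := by
    have h4 : n * ((t' : F) - t) = 0 := by linear_combination (-1 : F) * h2 + n * h1
    rcases mul_eq_zero.1 h4 with h5 | h5
    · exact absurd h5 hn0
    · exact sub_eq_zero.1 h5
  have h4 : t' = t := Units.ext h3
  rw [h4, ht] at ht'
  apply hn1
  have := congrArg Units.val ht'
  simpa using this.symm

/-- a point on the conic -/
lemma exists_point [Finite F] {n t T : F} (hn0 : n ≠ 0) (ht : t ≠ 0) (hT : T ≠ 2 * n) :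
    ∃ a s : F, (T - 2 * n) * a * (s - a) = - n * (s * s - t * s + n) := by
  have : Fintype F := Fintype.ofFinite F
  have hT' : T - 2 * n ≠ 0 := sub_ne_zero.2 hT
  by_cases h2 : (2 : F) = 0
  · -- characteristic two: `s = 0`, `T a ^ 2 = n ^ 2`
    have hchar : CharP F 2 := by
      have := CharTwo.of_one_ne_zero_of_two_eq_zero (R := F) one_ne_zero h2
      exact this
    have hsq : ∃ a : F, a ^ 2 = n * n / (T - 2 * n) := by
      have hbij : Function.Bijective (frobenius F 2) := by
        rw [Finite.injective_iff_bijective.symm]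
        exact RingHom.injective _
      obtain ⟨a, ha⟩ := hbij.2 (n * n / (T - 2 * n))
      exact ⟨a, by simpa [frobenius_def] using ha⟩
    obtain ⟨a, ha⟩ := hsq
    refine ⟨a, 0, ?_⟩
    rw [eq_div_iff hT'] at ha
    linear_combination -ha
  · -- odd characteristic
    obtain ⟨k, hk⟩ : ∃ k, k = n / (T - 2 * n) := ⟨_, rfl⟩
    have hk0 : k ≠ 0 := by rw [hk]; exact div_ne_zero hn0 hT'
    have hkT : k * (T - 2 * n) = n := by rw [hk]; exact div_mul_cancel₀ n hT'
    have key : ∀ w s : F, w * w = s * s + 4 * k * (s * s - t * s + n) →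
        ∃ a s : F, (T - 2 * n) * a * (s - a) = - n * (s * s - t * s + n) := by
      intro w s hw
      refine ⟨(s + w) / 2, s, ?_⟩
      have h4 : (s + w) / 2 * (s - (s + w) / 2) = - k * (s * s - t * s + n) := by
        have : (s + w) / 2 * (s - (s + w) / 2) = (s * s - w * w) / (2 * 2) := by
          field_simp; ring
        rw [this, hw]
        field_simp; ring
      linear_combination (T - 2 * n) * h4 - (s * s - t * s + n) * hkT
    by_cases hm : 1 + 4 * k = 0
    · have h4k : 4 * k ≠ 0 := by
        intro h0; rw [h0, add_zero] at hm; exact one_ne_zero hm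
      refine key 0 (n / t) ?_
      field_simp
      linear_combination -(n ^ 2) * hm
    · have hodd : Fintype.card F % 2 = 1 := by
        have hne : ringChar F ≠ 2 := by
          intro h0
          apply h2
          have := ringChar.Nat.cast_ringChar (R := F)
          rw [h0] at this
          exact_mod_cast this
        exact FiniteField.odd_card_of_char_ne_two hne
      have hd1 : degree (C (-1 : F) * X ^ 2 + C 0 * X + C 0) = 2 := Polynomial.degree_quadratic (by simp)
      have hd2 : degree (C (1 + 4 * k : F) * X ^ 2 + C (-(4 * k * t)) * X + C (4 * k * n)) = 2 :=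
        Polynomial.degree_quadratic hm
      obtain ⟨w, s, hws⟩ := FiniteField.exists_root_sum_quadratic hd1 hd2 hodd
      simp only [eval_add, eval_mul, eval_C, eval_pow, eval_X] at hws
      refine key w s ?_
      linear_combination -hws

/-- `cmat T (n ^ 2)` is a product of two matrices of trace `t` and determinant `n`, unless `T = 2 n` -/
lemma two_prod [Finite F] {n t T : F} (hn0 : n ≠ 0) (ht : t ≠ 0) (hT : T ≠ 2 * n) :
    ∃ X1 X2 : Matrix (Fin 2) (Fin 2) F, X1.trace = t ∧ X1.det = n ∧ X2.trace = t ∧ X2.det = n ∧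
      X1 * X2 = cmat T (n * n) := by
  obtain ⟨a, s, has⟩ := exists_point (T := T) hn0 ht hT
  obtain ⟨c, hc⟩ : ∃ c, c = (s - a) / n := ⟨_, rfl⟩
  have hcn : n * c = s - a := by rw [hc]; field_simp
  obtain ⟨b, hb⟩ : ∃ b, b = c * (n * n) + a * T - n * t := ⟨_, rfl⟩
  have hdet : a * (t - a) - b * c = n := by
    have h1 : n * (a * (t - a) - b * c - n) = 0 := by
      rw [hb]
      linear_combination (-1 : F) * has + (-(n * n * c) - n * (s - a) - a * T + n * t) * hcn
    rcases mul_eq_zero.1 h1 with h2 | h2
    · exact absurd h2 hn0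
    · linear_combination h2
  refine ⟨!![a, b; c, t - a], !![-b / n, (-(n * n) * (t - a) - b * T) / n; a / n, (c * (n * n) + a * T) / n],
    ?_, ?_, ?_, ?_, ?_⟩
  · simp [Matrix.trace_fin_two]
  · rw [Matrix.det_fin_two]; simpa using hdet
  · simp only [Matrix.trace_fin_two, Matrix.of_apply, Matrix.cons_val', Matrix.cons_val_zero, Matrix.cons_val_fin_one,
      Matrix.cons_val_one]
    field_simp
    linear_combination -hb
  · rw [Matrix.det_fin_two]
    simp only [Matrix.of_apply, Matrix.cons_val', Matrix.cons_val_zero, Matrix.cons_val_fin_one,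
      Matrix.cons_val_one]
    field_simp
    linear_combination n ^ 2 * hdet
  · ext i j
    fin_cases i <;> fin_cases j <;> simp [cmat, Matrix.mul_apply, Fin.sum_univ_two] <;> field_simp
    · ring
    · linear_combination (-(n * n)) * hdet
    · linear_combination hdet
    · linear_combination T * hdet
end Cfsg.Agent.Lib.GL2Prod62
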