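import Cfsg.Agent.Lib.GLARed
import Cfsg.Agent.Lib.ZJThm

/-!
The constrained case: `Z(J(S))` not normal gives a quadratic `A ∈ 𝓐(S)`. (helper65)
-/

set_option autoImplicit false
set_option linter.unusedSectionVars false

namespace Cfsg.Agent.Lib.GLAConstr

open Subgroup Cfsg.Agent.Lib.ThompsonJ Cfsg.Agent.Lib.RelSylow Cfsg.Agent.Lib.GlaubRepl3
  Cfsg.Agent.Lib.PStab Cfsg.Agent.Lib.FactorizeQuot Cfsg.Agent.Lib.ReplacementElem Cfsg.Agent.Lib.ZJThm
open scoped commutatorElement

universe u
variable {G : Type u} [Group G] {p : ℕ} {P : Subgroup G → Prop} {S : Subgroup G}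

/-- Glauberman: `ZJ ∩ B` is normal for every normal `p`-subgroup `B`. -/
theorem zj_inf_normal' [Finite G] [Fact p.Prime] (hF : Fam p P) (hS : IsSyl p S ⊤) (hp : p ≠ 2)
    (hst : ∀ (B A : Subgroup G) [B.Normal], IsPGroup p B →
      normalClosure ((ZJ P S ⊓ B : Subgroup G) : Set G) = B → A ∈ maxIn P S → ⁅⁅B, A⁆, A⁆ = ⊥ →
      A ≤ Dcore p (centralizer (B : Set G))) :
    ∀ (n : ℕ) (B : Subgroup G), B.Normal → IsPGroup p B → Nat.card B ≤ n → (ZJ P S ⊓ B).Normal := by
  intro n
  induction n with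
  | zero =>
    intro B _ _ hn
    exact absurd hn (not_le.2 Nat.card_pos)
  | succ n ih =>
    intro B hBn hBp hcard
    set Z := ZJ P S with hZ
    have hBS : B ≤ S := by
      obtain ⟨Q, hQ⟩ := hS.toSylow
      rw [← hQ]
      exact hBp.le_sylow_of_normal Q
    have hZn : S ≤ normalizer (Z : Set G) := le_normalizer.trans (hF.normalizer_le S)
    by_cases hB1 : normalClosure ((Z ⊓ B : Subgroup G) : Set G) = B
    swap
    · have hle : normalClosure ((Z ⊓ B : Subgroup G) : Set G) ≤ B :=
        normalClosure_le_normal (inf_le_right : Z ⊓ B ≤ B)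
      have hlt : Nat.card (normalClosure ((Z ⊓ B : Subgroup G) : Set G)) < Nat.card B := by
        refine lt_of_le_of_ne (Subgroup.card_le_of_le hle) ?_
        intro h
        exact hB1 (Subgroup.eq_of_le_of_card_ge hle h.ge)
      have h1 := ih _ normalClosure_normal (hBp.to_le hle) (by omega)
      have h2 : Z ⊓ normalClosure ((Z ⊓ B : Subgroup G) : Set G) = Z ⊓ B := by
        apply le_antisymm
        · exact le_inf inf_le_left (inf_le_right.trans hle)
        · exact le_inf inf_le_left subset_normalClosure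
      rwa [h2] at h1
    by_cases hBbot : B = ⊥
    · rw [hBbot, inf_bot_eq]; infer_instance
    -- the derived subgroup
    have hnil : Group.IsNilpotent B := hBp.isNilpotent
    have hDne : ⁅B, B⁆ ≠ B := fun h => hBbot (eq_bot_of_le_commutator hnil le_rfl h.ge)
    have hDlt : Nat.card (⁅B, B⁆ : Subgroup G) < Nat.card B := by
      refine lt_of_le_of_ne (Subgroup.card_le_of_le (commutator_le_self B)) ?_
      intro h
      exact hDne (Subgroup.eq_of_le_of_card_ge (commutator_le_self B) h.ge)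
    have hN0 : (Z ⊓ ⁅B, B⁆).Normal :=
      ih _ inferInstance (hBp.to_le (commutator_le_self B)) (by omega)
    have hBBle : ⁅B, B⁆ ≤ Z ⊓ ⁅B, B⁆ := by
      have key : B ≤ {x : G | ∀ y ∈ B, ⁅x, y⁆ ∈ Z ⊓ ⁅B, B⁆} := by
        intro x hx
        have hx' : x ∈ normalClosure ((Z ⊓ B : Subgroup G) : Set G) := by rw [hB1]; exact hx
        refine closure_induction (p := fun x _ => ∀ y ∈ B, ⁅x, y⁆ ∈ Z ⊓ ⁅B, B⁆) ?_ ?_ ?_ ?_ hx'
        · intro x hx y hy
          obtain ⟨z, hz, hzx⟩ := Group.mem_conjugatesOfSet_iff.1 hx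
          obtain ⟨g, hg⟩ := isConj_iff.1 hzx
          rw [← hg]
          have e1 : ⁅g * z * g⁻¹, y⁆ = g * ⁅z, g⁻¹ * y * g⁆ * g⁻¹ := by
            simp only [commutatorElement_def]; group
          rw [e1]
          apply hN0.conj_mem
          have hy' : g⁻¹ * y * g ∈ B := by
            have := hBn.conj_mem y hy g⁻¹
            simpa using this
          refine ⟨?_, commutator_mem_commutator hz.2 hy'⟩
          rw [commutatorElement_def]
          have h5 := (mem_normalizer_iff.1 (hZn (hBS hy')) z⁻¹).1 (inv_mem hz.1)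
          have h6 := Z.mul_mem hz.1 h5
          have e2 : z * ((g⁻¹ * y * g) * z⁻¹ * (g⁻¹ * y * g)⁻¹) = z * (g⁻¹ * y * g) * z⁻¹ * (g⁻¹ * y * g)⁻¹ := by
            group
          rwa [e2] at h6
        · intro y _
          rw [commutatorElement_one_left]; exact one_mem _
        · intro x x' _ _ h1 h2 y hy
          have e : ⁅x * x', y⁆ = x * ⁅x', y⁆ * x⁻¹ * ⁅x, y⁆ := by
            simp only [commutatorElement_def]; group
          rw [e]
          exact mul_mem (hN0.conj_mem _ (h2 y hy) x) (h1 y hy)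
        · intro x _ h1 y hy
          have e : ⁅x⁻¹, y⁆ = x⁻¹ * ⁅x, y⁆⁻¹ * (x⁻¹)⁻¹ := by
            simp only [commutatorElement_def]; group
          rw [e]
          exact hN0.conj_mem _ (inv_mem (h1 y hy)) _
      rw [commutator_le]
      intro x hx y hy
      exact key hx y hy
    have hBBZ : ⁅B, B⁆ ≤ Z := hBBle.trans inf_le_left
    -- L
    set W := Z ⊓ B with hW
    set N := normalizer (W : Set G) with hN
    set L := N.normalCore with hL
    have hLN : L ≤ N := N.normalCore_le
    have hSN : S ≤ N := by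
      intro s hs
      rw [hN, RelSylow.mem_normalizer_iff_map, hW, map_inf_eq _ _ _ (MulAut.conj s).injective,
        conj_eq_of_mem_normalizer (hZn hs), conj_eq_of_mem_normalizer (by
          rw [Subgroup.normalizer_eq_top]; exact mem_top s)]
    have hSL : IsSyl p (S ⊓ L) L := hS.inf le_top (by rw [Subgroup.normalizer_eq_top])
    by_contra hnn
    have hgoal : ¬ (⊤ : Subgroup G) ≤ N := by
      intro h
      apply hnn
      rw [← Subgroup.normalizer_eq_top_iff, eq_top_iff]
      exact h
    -- case 1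
    by_cases hall : ∀ A ∈ maxIn P S, A ≤ L
    · apply hgoal
      intro g _
      obtain ⟨l, hl, n, hn, rfl⟩ := hSL.frattini (H := ⊤) (by rw [Subgroup.normalizer_eq_top]) (mem_top g)
      refine mul_mem (hLN hl) ?_
      have hmaxeq : maxIn P (S ⊓ L) = maxIn P S := by
        obtain ⟨A, hA⟩ := hF.nonempty S
        rw [maxIn_eq_of_exists (inf_le_left : S ⊓ L ≤ S) ⟨A, hA, le_inf hA.1 (hall A hA)⟩]
        ext X
        exact ⟨fun h => h.1, fun h => ⟨h, le_inf h.1 (hall X h)⟩⟩
      have hZeq : ZJ P (S ⊓ L) = Z := by rw [hZ]; unfold ZJ; rw [hmaxeq]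
      have hn' := hF.normalizer_le (S ⊓ L) hn
      rw [hZeq] at hn'
      rw [hN, RelSylow.mem_normalizer_iff_map, hW, map_inf_eq _ _ _ (MulAut.conj n).injective,
        conj_eq_of_mem_normalizer hn', conj_eq_of_mem_normalizer (by
          rw [Subgroup.normalizer_eq_top]; exact mem_top n)]
    · push Not at hall
      obtain ⟨A, ⟨hA1, hA2⟩, hmax⟩ := Set.exists_max_image
        {U : Subgroup G | U ∈ maxIn P S ∧ ¬ U ≤ L} (fun U => Nat.card (U ⊓ B : Subgroup G))
        (Set.toFinite _) hall
      by_cases hBA : B ≤ normalizer (A : Set G)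
      · apply hA2
        have hquad : ⁅⁅B, A⁆, A⁆ = ⊥ := by
          have h1 : ⁅B, A⁆ ≤ A := le_normalizer_iff_commutator_le_right.1 hBA
          have h2 := hF.ab A hA1.2.1
          rw [← commutator_self_eq_bot_iff] at h2
          rw [eq_bot_iff, ← h2]
          exact commutator_mono h1 le_rfl
        have hDN : Dcore p (centralizer (B : Set G)) ≤ N := by
          rw [Dcore_eq_sup (centralizer (B : Set G)) hS]
          refine sup_le ?_ (inf_le_left.trans hSN)
          exact (centralizer_le (inf_le_right : W ≤ B)).trans (centralizer_le_normalizer _)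
        have hDL : Dcore p (centralizer (B : Set G)) ≤ L := normal_le_normalCore.2 hDN
        exact (hst B A hBp hB1 hA1 hquad).trans hDL
      · obtain ⟨A', h1, h2, h3, h4⟩ := hF.step_rel hS.2.1 hBS (by
          rw [Subgroup.normalizer_eq_top]; exact le_top) (fun h => absurd h hp) hA1
          (hBBZ.trans (ZJ_le hA1)) hBA
        have hA'L : A' ≤ L := by
          by_contra hcon
          have h5 := hmax A' ⟨h1, hcon⟩
          have h6 : Nat.card (A ⊓ B : Subgroup G) < Nat.card (A' ⊓ B : Subgroup G) := by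
            refine lt_of_le_of_ne (Subgroup.card_le_of_le h3.le) ?_
            intro h8
            exact h3.ne (Subgroup.eq_of_le_of_card_ge h3.le h8.ge)
          exact absurd h5 (not_le.2 h6)
        have hmaxeq := maxIn_eq_of_exists (inf_le_left : S ⊓ L ≤ S) ⟨A', h1, le_inf h1.1 hA'L⟩
        have hZX : Z ≤ ZJ P (S ⊓ L) := by
          rw [hZ]
          unfold ZJ
          rw [hmaxeq]
          exact sInf_le_sInf fun X hX => hX.1
        have hBX : B ≤ ZJ P (S ⊓ L) := by
          rw [← hB1, normalClosure, closure_le]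
          intro x hx
          obtain ⟨z, hz, hzx⟩ := Group.mem_conjugatesOfSet_iff.1 hx
          obtain ⟨g, hg⟩ := isConj_iff.1 hzx
          obtain ⟨l, hl, n, hn, hgl⟩ := hSL.frattini (H := ⊤) (by rw [Subgroup.normalizer_eq_top]) (mem_top g⁻¹)
          have hg' : g = n⁻¹ * l⁻¹ := by rw [← mul_inv_rev, ← hgl, inv_inv]
          have hz' : l⁻¹ * z * l ∈ W := by
            have := (mem_normalizer_iff.1 (hLN (inv_mem hl)) z).1 hz
            simpa using this
          have hn' := hF.normalizer_le (S ⊓ L) hn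
          have h7 := (mem_normalizer_iff.1 (inv_mem hn') (l⁻¹ * z * l)).1 (hZX hz'.1)
          rw [← hg, hg']
          have e : n⁻¹ * l⁻¹ * z * (n⁻¹ * l⁻¹)⁻¹ = n⁻¹ * (l⁻¹ * z * l) * n⁻¹⁻¹ := by group
          rw [e]; exact h7
        have hBA' : B ≤ A' := by
          refine hBX.trans (ZJ_le ?_)
          rw [hmaxeq]
          exact ⟨h1, le_inf h1.1 hA'L⟩
        exact h4.ne (inf_eq_right.2 hBA')


/-- if `Z ∩ Q` is normal, `Z` abelian normalised by `Q = O_p`, then `Z ≤ Q` (constrained case). -/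
theorem le_pCore_of_inf_normal [Finite G] [Fact p.Prime] {Z : Subgroup G}
    (hc : centralizer (Cfsg.pCore p G : Set G) ≤ Cfsg.pCore p G)
    (hZa : Z ≤ centralizer (Z : Set G)) (hQZ : Cfsg.pCore p G ≤ normalizer (Z : Set G))
    (hn : (Z ⊓ Cfsg.pCore p G).Normal) : Z ≤ Cfsg.pCore p G := by
  classical
  set Q := Cfsg.pCore p G with hQ
  have hQn : Q.Normal := CFCore.pCore_normal p G
  have hQp : IsPGroup p Q := isPGroup_pCore
  set N := Z ⊓ Q with hN
  let π := QuotientGroup.mk' N
  have hπ : ∀ x, π x = 1 ↔ x ∈ N := fun x => QuotientGroup.eq_one_iff x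
  let C₁ : Subgroup G := centralizer (N : Set G) ⊓ (centralizer ((Q.map π : Subgroup (G ⧸ N)) : Set (G ⧸ N))).comap π
  have hQm : (Q.map π).Normal := hQn.map _ (QuotientGroup.mk'_surjective N)
  have hC₁n : C₁.Normal := by
    have h1 : (centralizer (N : Set G)).Normal := inferInstance
    have h2 : ((centralizer ((Q.map π : Subgroup (G ⧸ N)) : Set (G ⧸ N))).comap π).Normal := inferInstance
    exact inferInstance
  have hC₁ : ∀ x ∈ C₁, ∀ q ∈ Q, q⁻¹ * (x * q * x⁻¹) ∈ N := by
    intro x hx q hq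
    rw [← hπ, map_mul, map_mul, map_mul, map_inv, map_inv]
    have h1 := mem_centralizer_iff.1 hx.2 (π q) ⟨q, hq, rfl⟩
    have h1' : π q * π x = π x * π q := h1
    rw [← h1', mul_assoc, mul_inv_cancel, mul_one, inv_mul_cancel]
  have hp1 : IsPGroup p C₁ := by
    rintro ⟨x, hx⟩
    refine ⟨(orderOf x).factorization p, ?_⟩
    apply Subtype.ext
    show x ^ p ^ (orderOf x).factorization p = 1
    set d := x ^ p ^ (orderOf x).factorization p with hd
    have hdC : d ∈ C₁ := pow_mem hx _
    have hdo : (orderOf d).Coprime p := PStabPair.coprime_orderOf_pow x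
    have h1 := CFRed.coprime_centralizes (Q := N) hQp (inf_le_right : N ≤ Q) hdo (by
      intro n hn
      have := mem_centralizer_iff.1 hdC.1 n hn
      rw [← this]; group) (hC₁ d hdC)
    have h2 : d ∈ Q := by
      apply hc
      rw [mem_centralizer_iff]
      intro q hq
      have h3 := h1 q hq
      calc q * d = (d * q * d⁻¹) * d := by rw [h3]
        _ = d * q := by group
    obtain ⟨k, hk⟩ := hQp ⟨d, h2⟩
    have hk' : d ^ p ^ k = 1 := congrArg Subtype.val hk
    have h3 : orderOf d ∣ 1 := by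
      have := Nat.dvd_gcd (dvd_refl (orderOf d)) (orderOf_dvd_of_pow_eq_one hk')
      rwa [Nat.Coprime.gcd_eq_one (Nat.Coprime.pow_right k hdo)] at this
    exact orderOf_eq_one_iff.1 (Nat.dvd_one.1 h3)
  have hZC : Z ≤ C₁ := by
    intro z hz
    refine mem_inf.2 ⟨centralizer_le (inf_le_left : N ≤ Z) (hZa hz), ?_⟩
    rw [mem_comap, mem_centralizer_iff]
    rintro _ ⟨q, hq, rfl⟩
    have h1 : ⁅q, z⁆ ∈ N := by
      refine mem_inf.2 ⟨?_, ?_⟩
      · have := (mem_normalizer_iff.1 (hQZ hq) z).1 hz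
        rw [commutatorElement_def]
        exact mul_mem this (inv_mem hz)
      · have := hQn.conj_mem _ (inv_mem hq) z
        rw [commutatorElement_def]
        have e : q * z * q⁻¹ * z⁻¹ = q * (z * q⁻¹ * z⁻¹) := by group
        rw [e]; exact mul_mem hq this
    have h2 : ⁅π q, π z⁆ = 1 := by
      rw [← map_commutatorElement]
      exact (hπ _).2 h1
    exact commutatorElement_eq_one_iff_mul_comm.1 h2
  exact hZC.trans (CFCore.le_pCore hC₁n hp1)

/-- If `Z(J(S))` is not normal in a constrained group, some `A ∈ 𝓐(S)` acts quadratically on a normal `p`-subgroup. -/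
theorem exists_BA [Finite G] [Fact p.Prime] (hF : Fam p P) (hS : IsSyl p S ⊤) (hp : p ≠ 2)
    (hc : centralizer (Cfsg.pCore p G : Set G) ≤ Cfsg.pCore p G) (hnn : ¬ (ZJ P S).Normal) :
    ∃ (B A : Subgroup G) (_ : B.Normal), IsPGroup p B ∧
      normalClosure ((ZJ P S ⊓ B : Subgroup G) : Set G) = B ∧ A ∈ maxIn P S ∧ ⁅⁅B, A⁆, A⁆ = ⊥ ∧
      ¬ A ≤ Dcore p (centralizer (B : Set G)) := by
  by_contra hcon
  push Not at hcon
  apply hnn
  have h1 := zj_inf_normal' hF hS hp (fun B A hBn hBp hB1 hA hq => hcon B A hBn hBp hB1 hA hq)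
  have h2 := h1 _ (Cfsg.pCore p G) (CFCore.pCore_normal p G) isPGroup_pCore le_rfl
  have hOS : Cfsg.pCore p G ≤ S := by
    obtain ⟨Q, hQ⟩ := hS.toSylow
    rw [← hQ]
    exact isPGroup_pCore.le_sylow_of_normal Q
  have hZn : S ≤ normalizer (ZJ P S : Set G) := le_normalizer.trans (hF.normalizer_le S)
  have h3 := le_pCore_of_inf_normal hc (hF.ZJ_comm S) (hOS.trans hZn) h2
  rwa [inf_eq_left.2 h3] at h2

end Cfsg.Agent.Lib.GLAConstr
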