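import Cfsg.Agent.Lib.GLAConstr

/-!
If `Z(J(S))` does not control strong fusion then `N(Z(J(S)))` has the property `R`. (helper65)
-/

set_option autoImplicit false
set_option linter.unusedSectionVars false

namespace Cfsg.Agent.Lib.GLAMain

open Cfsg.Agent.Lib.CFSylow Cfsg.Agent.Lib.CFFusion Cfsg.Agent.Lib.CFControl
  Cfsg.Agent.Lib.CFLocal Cfsg.Agent.Lib.CFCore Cfsg.Agent.Lib.CFSection Cfsg.Agent.Lib.CFMin
  Cfsg.Agent.Lib.CFMain Cfsg.Agent.Lib.CFRed Cfsg.Agent.Lib.CFStmt Cfsg.Agent.Lib.GLAStab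
  Cfsg.Agent.Lib.GLARed Cfsg.Agent.Lib.ClosedPS Cfsg.Agent.Lib.ThompsonJ Cfsg.Agent.Lib.ZJThm
open Subgroup (normalClosure)

universe u

variable {p : ℕ} [Fact p.Prime] {R : ∀ (X : Type u) [Group X], Prop}

/-- `Z(J(D))`, abelian version. -/
abbrev zj {X : Type u} [Group X] (D : Subgroup X) : Subgroup X := ZJ (fun A : Subgroup X => IsMulCommutative A) D

theorem ind_eq {X : Type u} [Group X] [Finite X] (D : Subgroup X) : Cfsg.inducedFunctor Wab D = zj D := by
  rw [induced_Wab, centerThompsonAOf_eq]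

/-- **The constrained case.** -/
theorem con_case (hp2 : p ≠ 2) (hR : Climb p R) (hkey : Key p R) {X : Type u} [Group X] [Finite X]
    (IH : ∀ (Y : Type u) [Group Y] [Finite Y], Nat.card Y < Nat.card X → PP p Wab R Y)
    (hC : cz (Cfsg.pCore p X) ≤ Cfsg.pCore p X) : PP p Wab R X := by
  classical
  have hW : Cfsg.IsCharPFunctor.{u} p Wab := isChar_Wab
  have hc := isConjugacyFunctor_induced (X := X) hW
  have hF : Fam p (fun A : Subgroup X => IsMulCommutative A) := fam_ab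
  intro S₀ hS₀ hn₀
  suffices hall : ∀ S : Subgroup X, SylIn p S ⊤ → ¬ R ↥(nz (zj S)) → (zj S).Normal by
    intro S hS
    refine famSF_of_normal (Set.mem_singleton Wab) ?_
    rw [ind_eq]
    refine hall S hS ?_
    have := not_R_all hW hR.mono hS₀ hS hn₀
    rwa [ind_eq] at this
  intro S hS hn
  by_contra hnn
  have hSp := hS.isPGroup
  set Q := Cfsg.pCore p X with hQ
  have hQn : Q.Normal := pCore_normal p X
  have hQp : IsPGroup p Q := pCore_isPGroup
  have hQS : Q ≤ S := pCore_le hS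
  have hSnz : ∀ T : Subgroup X, IsPGroup p T → nz T ≤ nz (zj T) := by
    intro T hT
    have := nz_le_nz_functor hc hT
    rwa [ind_eq] at this
  -- proper overgroups of `S`
  have hover : ∀ H : Subgroup X, S ≤ H → H ≠ ⊤ → H ≤ nz (zj S) := by
    intro H hSH hH h hh
    have hSylH : SylIn p S H := hS.of_le hSH le_top
    have h1 : CtrlSF p {Wab} ↥H := by
      refine ctrl_of_not hW hR.mono hSylH (IH _ (card_subgroup_lt hH)) ?_
      rw [ind_eq]
      exact fun h => hn (hR.mono.of_le inf_le_right h)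
    have h2 := famSF_subgroup (h𝓦 hW) h1 hSylH
    rw [ind_singleton, famSF_singleton] at h2
    obtain ⟨x, hx, c, hcc, rfl⟩ := h2 Q hQS h hh (by rw [cj_normal]; exact hQS)
    have hx2 := hx.2
    rw [ind_eq] at hx2
    exact mul_mem hx2 (hSnz S hSp (Subgroup.le_normalizer (hQS (hC hcc))))
  have hS' : RelSylow.IsSyl p S ⊤ := hS
  obtain ⟨B, A, hBn, hBp, hB1, hA, hBAA, hnot⟩ := GLAConstr.exists_BA hF hS' hp2 hC hnn
  have hAp : IsPGroup p A := hSp.to_le hA.1
  obtain ⟨U₀, hU₀, hAU₀, hRU₀⟩ := exists_U hR.mono hkey (Nat.card X) X le_rfl B A hBp hAp hBAA hnot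
  have hAQ : ¬ A ≤ Q := by
    intro h
    exact hnot (h.trans (PStab.le_Dcore_of_isPGroup hQn (hQp.map _)))
  -- the family
  let 𝓤 : Set (Subgroup X × Subgroup X) :=
    {UT | ¬ UT.1.Normal ∧ Q ≤ nz UT.1 ∧ R ↥(nz UT.1) ∧ (∃ x : X, cj x A ≤ nz UT.1) ∧ SylIn p UT.2 (nz UT.1)}
  have hcjA : ∀ x : X, ¬ cj x A ≤ Q := by
    intro x h
    apply hAQ
    rwa [cj_le_iff, show cj x⁻¹ Q = Q from cj_normal] at h
  have hne : 𝓤.Nonempty := by
    have hsup : IsPGroup p (U₀ ⊔ Q : Subgroup X) := hU₀.to_sup_of_normal_right hQp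
    obtain ⟨T, hT⟩ := exists_sylIn p (nz (U₀ ⊔ Q))
    have hle : nz U₀ ≤ nz (U₀ ⊔ Q) := by
      have h1 := Subgroup.normalizer_inf_normalizer_le_normalizer_sup U₀ Q
      rw [show Subgroup.normalizer (Q : Set X) = ⊤ from Subgroup.normalizer_eq_top Q, inf_top_eq] at h1
      exact h1
    refine ⟨(U₀ ⊔ Q, T), ?_, ?_, ?_, ?_, hT⟩
    · intro h
      exact hAQ ((hAU₀.trans le_sup_left).trans (CFCore.le_pCore h hsup))
    · exact le_sup_right.trans Subgroup.le_normalizer
    · exact hR.mono.of_le hle hRU₀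
    · refine ⟨1, ?_⟩
      rw [cj_one]
      exact (hAU₀.trans Subgroup.le_normalizer).trans hle
  obtain ⟨⟨U₁, T₁⟩, hUT₁, hmax₁⟩ := Set.exists_max_image 𝓤 (fun UT => Nat.card UT.2) (Set.toFinite _) hne
  -- move it into `S`
  obtain ⟨U, T, x, hUT, hTS, hAT, hmax⟩ : ∃ (U T : Subgroup X) (x : X), (U, T) ∈ 𝓤 ∧ T ≤ S ∧ cj x A ≤ T ∧
      ∀ UT ∈ 𝓤, Nat.card UT.2 ≤ Nat.card T := by
    obtain ⟨h1, h2, h3, ⟨x, hx⟩, h5⟩ := hUT₁
    obtain ⟨y, hy, hyT⟩ := h5.exists_conj_le (isPGroup_cj (g := x) hAp) hx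
    obtain ⟨g, -, hg⟩ := hS.exists_conj_le h5.isPGroup le_top
    refine ⟨cj g U₁, cj g T₁, g * (y * x), ⟨?_, ?_, ?_, ⟨g * (y * x), ?_⟩, ?_⟩, hg, ?_, ?_⟩
    · intro h
      apply h1
      have : cj g⁻¹ (cj g U₁) = cj g U₁ := cj_normal
      rw [cj_inv_cj] at this
      rwa [← this] at h
    · rw [← cj_nz, ← show cj g Q = Q from cj_normal]
      exact cj_mono h2
    · show R ↥(nz (cj g U₁))
      rw [← cj_nz]
      refine hR.mono.of_map (f := (MulAut.conj g).toMonoidHom) (MulAut.conj g).injective le_rfl h3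
    · rw [← cj_nz, ← cj_cj, ← cj_cj]
      exact cj_mono (hyT.trans h5.le)
    · show SylIn p (cj g T₁) (nz (cj g U₁))
      rw [← cj_nz]; exact h5.conj g
    · rw [← cj_cj, ← cj_cj]; exact cj_mono hyT
    · intro UT hUT
      rw [card_cj]
      exact hmax₁ UT hUT
  obtain ⟨hUn, hQU, hRU, -, hTsyl⟩ := hUT
  simp only at hUn hQU hRU hTsyl
  have hTp := hTsyl.isPGroup
  have hUtop : nz U ≠ ⊤ := fun h => hUn (nz_eq_top_iff.1 h)
  have hQT : Q ≤ T := by
    have h1 : IsPGroup p (T ⊔ Q : Subgroup X) := hTp.to_sup_of_normal_right hQp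
    have h2 := hTsyl.eq_of_le le_sup_left h1 (sup_le hTsyl.le hQU)
    rw [h2]; exact le_sup_right
  have hRT : R ↥(nz (zj T)) := by
    by_contra h
    have h1 := (both hW hR hTsyl (IH _ (card_subgroup_lt hUtop)) (by
      rw [ind_eq]
      exact fun h' => h (hR.mono.of_le inf_le_right h'))).2
    exact h1 hRU
  by_cases hN : (zj T).Normal
  · -- `B ≤ zj T` is centralized by `cj x A`
    have hAS : cj x A ∈ maxIn (fun A : Subgroup X => IsMulCommutative A) S := by
      refine ⟨hAT.trans hTS, ?_, ?_⟩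
      · exact (hF.inv (MulAut.conj x) A).1 hA.2.1
      · intro D hD hDa
        rw [card_cj]
        exact hA.2.2 D hD hDa
    have hmaxeq := maxIn_eq_of_exists hTS ⟨cj x A, hAS, hAT⟩
    have hZle : zj S ≤ zj T := by
      unfold zj ZJ
      rw [hmaxeq]
      exact sInf_le_sInf fun D hD => hD.1
    have hBT : B ≤ zj T := by
      rw [← hB1]
      exact Subgroup.normalClosure_le_normal (inf_le_left.trans hZle)
    have hTA : zj T ≤ cj x A := by
      apply ZJ_le
      rw [hmaxeq]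
      exact ⟨hAS, hAT⟩
    have h1 : cj x A ≤ Subgroup.centralizer (B : Set X) := by
      have h2 := Subgroup.le_centralizer_iff_isMulCommutative.2 hAS.2.1
      exact h2.trans (Subgroup.centralizer_le (hBT.trans hTA))
    apply hnot
    have hCn : (Subgroup.centralizer (B : Set X)).Normal := cz_normal hBn
    have h3 : A ≤ Subgroup.centralizer (B : Set X) := by
      rwa [cj_le_iff, show cj x⁻¹ (Subgroup.centralizer (B : Set X)) = Subgroup.centralizer (B : Set X) from
        cj_normal] at h1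
    exact h3.trans (PStab.le_Dcore _)
  · have hTT : T ≤ nz (zj T) := Subgroup.le_normalizer.trans (hSnz T hTp)
    obtain ⟨T₂, hT₂, hTT₂⟩ := exists_sylIn_ge hTp hTT
    have hmem : (zj T, T₂) ∈ 𝓤 := ⟨hN, hQT.trans hTT, hRT, ⟨x, hAT.trans hTT⟩, hT₂⟩
    have hcard := hmax _ hmem
    have hTeq : T = T₂ := eq_of_le_of_card_le hTT₂ hcard
    have hTS' : T = S := by
      refine eq_of_inf_normalizer_le hSp hTS ?_
      have h1 : S ⊓ Subgroup.normalizer (T : Set X) ≤ nz (zj T) := inf_le_right.trans (hSnz T hTp)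
      have h2 : T ≤ S ⊓ Subgroup.normalizer (T : Set X) := le_inf hTS Subgroup.le_normalizer
      have h3 : SylIn p T (nz (zj T)) := by rw [hTeq] at hT₂ ⊢; exact hT₂
      exact (h3.eq_of_le h2 (hSp.to_le inf_le_left) h1).ge
    subst hTS'
    exact hn (hR.mono.of_le (hover _ hTsyl.le hUtop) hRU)

/-- **Main theorem.** -/
theorem main (hp2 : p ≠ 2) (hR : Climb p R) (hkey : Key p R) :
    ∀ (n : ℕ) (X : Type u) [Group X] [Finite X], Nat.card X ≤ n → PP p Wab R X := by
  intro n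
  induction n with
  | zero => intro X _ _ hn; exact absurd hn (not_le.2 Nat.card_pos)
  | succ n ih =>
    intro X _ _ hn
    have IH : ∀ (Y : Type u) [Group Y] [Finite Y], Nat.card Y < Nat.card X → PP p Wab R Y :=
      fun Y _ _ h => ih Y (by omega)
    exact main_step isChar_Wab hR IH (con_case hp2 hR hkey IH)

/-- either `Z(J(S))` controls strong fusion, or `N(Z(J(S)))` has the property `R`. -/
theorem sf_or (hp2 : p ≠ 2) (hR : Climb p R) (hkey : Key p R) {X : Type u} [Group X] [Finite X]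
    {S : Subgroup X} (hS : SylIn p S ⊤) : SF (zj S) ⊤ S ∨ R ↥(nz (zj S)) := by
  by_cases h : R ↥(nz (zj S))
  · exact Or.inr h
  · left
    have h1 := main hp2 hR hkey _ X le_rfl S hS (by rwa [ind_eq])
    have := sf_of_ctrl h1 hS
    rwa [ind_eq] at this

/-- the property `R` climbs to `N(Z(J(S)))`. -/
theorem climb (hp2 : p ≠ 2) (hR : Climb p R) (hkey : Key p R) {X : Type u} [Group X] [Finite X]
    {S : Subgroup X} (hS : SylIn p S ⊤) (h : R X) : R ↥(nz (zj S)) := by
  rcases sf_or hp2 hR hkey hS with h1 | h1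
  · have hc := isConjugacyFunctor_induced (X := X) (isChar_Wab (p := p))
    have h2 := le_nz_functor hc hS.isPGroup
    rw [ind_eq] at h2
    exact hR.fus X S (zj S) hS h2 h1 h
  · exact h1

end Cfsg.Agent.Lib.GLAMain
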