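import Cfsg.Agent.Lib.GLAQuad
import Mathlib.LinearAlgebra.Eigenspace.Basic

/-!
A pair of quadratic elements acting on a finite module in odd characteristic `p`, not as a `p`-group: an irreducible
submodule with a natural `SL(2,p)`, and an involution commuting with them. (helper65)
-/

set_option autoImplicit false
set_option linter.unusedSectionVars false

namespace Cfsg.Agent.Lib.GLAMod

open Cfsg.Agent.Lib.GLAQuad

variable {p : ℕ} [hp : Fact p.Prime] {W : Type*} [AddCommGroup W] [Module (ZMod p) W] [Finite W]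
  {X : Type*} [Group X]

/-- if `c = αβ + βα` is nilpotent then `⟨x, y⟩` acts as a `p`-group. -/
theorem pow_eq_one_of_nilp (ρ : X →* Module.End (ZMod p) W) {x y : X}
    (hx : (ρ x - 1) * (ρ x - 1) = 0) (hy : (ρ y - 1) * (ρ y - 1) = 0) {N : ℕ}
    (hN : cc (ρ x - 1) (ρ y - 1) ^ N = 0) {h : X} (hh : h ∈ Subgroup.closure {x, y}) :
    ∃ k : ℕ, ρ h ^ p ^ k = 1 := by
  have hg := good_of_mem ρ hx hy hh
  have h1 : ρ h⁻¹ * ρ h = 1 := by rw [← map_mul, inv_mul_cancel, map_one]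
  have h2 := hg.nilp hx hy h1 hN
  obtain ⟨k, hk⟩ : ∃ k : ℕ, 2 * N ≤ p ^ k := ⟨2 * N, (Nat.lt_pow_self hp.out.one_lt).le⟩
  refine ⟨k, ?_⟩
  by_cases hW : Subsingleton W
  · apply LinearMap.ext; intro w; exact Subsingleton.elim _ _
  have hnt : Nontrivial W := not_subsingleton_iff_nontrivial.1 hW
  have h3 : (ρ h - 1) ^ p ^ k = 0 := pow_eq_zero_of_le hk h2
  have hcharp : CharP (Module.End (ZMod p) W) p :=
    charP_of_injective_algebraMap (algebraMap (ZMod p) (Module.End (ZMod p) W)).injective p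
  rw [sub_pow_char_pow_of_commute _ _ (Commute.one_right _), one_pow] at h3
  exact sub_eq_zero.1 h3

/-- invariance of a submodule under `x` and `y` extends to the group generated. -/
theorem inv_closure (ρ : X →* Module.End (ZMod p) W) {S : Set X} (U : Submodule (ZMod p) W)
    (h : ∀ s ∈ S, ∀ w ∈ U, ρ s w ∈ U) : ∀ g ∈ Subgroup.closure S, ∀ w ∈ U, ρ g w ∈ U := by
  have hfin : ∀ s : X, (∀ w ∈ U, ρ s w ∈ U) → ∀ w ∈ U, ρ s⁻¹ w ∈ U := by
    intro s hs w hw
    let f : U → U := fun u => ⟨ρ s u, hs u u.2⟩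
    have hinj : Function.Injective f := by
      intro u v huv
      have h1 : ρ s u = ρ s v := congrArg Subtype.val huv
      have h2 : ρ s⁻¹ (ρ s u) = ρ s⁻¹ (ρ s v) := by rw [h1]
      rw [← Module.End.mul_apply, ← Module.End.mul_apply, ← map_mul, inv_mul_cancel, map_one] at h2
      exact Subtype.ext h2
    have hsurj : Function.Surjective f := Finite.surjective_of_injective hinj
    obtain ⟨u, hu⟩ := hsurj ⟨w, hw⟩
    have h1 : ρ s u = w := congrArg Subtype.val hu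
    rw [← h1, ← Module.End.mul_apply, ← map_mul, inv_mul_cancel, map_one]
    exact u.2
  intro g hg
  induction hg using Subgroup.closure_induction with
  | mem x hx => exact h x hx
  | one => intro w hw; rw [map_one]; exact hw
  | mul a b _ _ ha hb => intro w hw; rw [map_mul]; exact ha _ (hb w hw)
  | inv a _ ha => exact hfin a ha

/-- A submodule on which `c = αβ + βα` is injective, irreducible under `⟨x, y⟩`. -/
theorem exists_submodule (ρ : X →* Module.End (ZMod p) W) {x y : X}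
    (hx : (ρ x - 1) * (ρ x - 1) = 0) (hy : (ρ y - 1) * (ρ y - 1) = 0)
    (hN : ∀ N, cc (ρ x - 1) (ρ y - 1) ^ N ≠ 0) :
    ∃ U : Submodule (ZMod p) W, U ≠ ⊥ ∧ (∀ g ∈ Subgroup.closure {x, y}, ∀ w ∈ U, ρ g w ∈ U) ∧
      (∀ w ∈ U, cc (ρ x - 1) (ρ y - 1) w = 0 → w = 0) ∧
      ∀ U' : Submodule (ZMod p) W, U' ≤ U → (∀ g ∈ Subgroup.closure {x, y}, ∀ w ∈ U', ρ g w ∈ U') →
        U' = ⊥ ∨ U' = U := by
  classical
  set c := cc (ρ x - 1) (ρ y - 1) with hc
  obtain ⟨n, hn⟩ := monotone_stabilizes_iff_noetherian.2 (inferInstance : IsNoetherian (ZMod p) W)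
    ⟨fun n => LinearMap.ker (c ^ n), fun a b hab => by
      intro w hw
      rw [LinearMap.mem_ker] at hw ⊢
      obtain ⟨d, rfl⟩ := Nat.exists_eq_add_of_le hab
      rw [add_comm, pow_add, Module.End.mul_apply, hw, map_zero]⟩
  let U₀ := LinearMap.range (c ^ n)
  have hcomm : ∀ g ∈ Subgroup.closure {x, y}, c * ρ g = ρ g * c := by
    intro g hg
    exact (good_of_mem ρ hx hy hg).comm_cc hx hy
  let S : Set (Submodule (ZMod p) W) :=
    {U | U ≠ ⊥ ∧ U ≤ U₀ ∧ ∀ g ∈ Subgroup.closure {x, y}, ∀ w ∈ U, ρ g w ∈ U}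
  have hS : U₀ ∈ S := by
    refine ⟨?_, le_rfl, ?_⟩
    · intro h
      exact hN n (LinearMap.range_eq_bot.1 h)
    · rintro g hg _ ⟨w, rfl⟩
      have h1 : Commute (ρ g) (c ^ n) := Commute.pow_right (hcomm g hg).symm n
      exact ⟨ρ g w, by rw [← Module.End.mul_apply, ← Module.End.mul_apply, h1.eq]⟩
  obtain ⟨U, hUmin⟩ := (Set.toFinite S).exists_minimal ⟨U₀, hS⟩
  have hU : U ∈ S := hUmin.prop
  refine ⟨U, hU.1, hU.2.2, ?_, ?_⟩
  · intro w hw h0
    obtain ⟨v, rfl⟩ := hU.2.1 hw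
    have h1 : v ∈ LinearMap.ker (c ^ (n + 1)) := by
      rw [LinearMap.mem_ker, pow_succ', Module.End.mul_apply]; exact h0
    have h2 : LinearMap.ker (c ^ n) = LinearMap.ker (c ^ (n + 1)) := hn (n + 1) (Nat.le_succ n)
    rw [← h2] at h1
    exact h1
  · intro U' hU' hinv
    by_cases h0 : U' = ⊥
    · exact Or.inl h0
    · right
      exact le_antisymm hU' (hUmin.le_of_le ⟨h0, hU'.trans hU.2.1, hinv⟩ hU')


/-- the restricted representation on an invariant submodule. -/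
def resRep (ρ : X →* Module.End (ZMod p) W) (H : Subgroup X) (U : Submodule (ZMod p) W)
    (hU : ∀ g ∈ H, ∀ w ∈ U, ρ g w ∈ U) : ↥H →* Module.End (ZMod p) ↥U where
  toFun h := (ρ h).restrict (hU h h.2)
  map_one' := by
    apply LinearMap.ext; intro w; apply Subtype.ext
    rw [LinearMap.coe_restrict_apply, Subgroup.coe_one, map_one]; rfl
  map_mul' a b := by
    apply LinearMap.ext; intro w; apply Subtype.ext
    rw [LinearMap.coe_restrict_apply, Subgroup.coe_mul, map_mul]; rfl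

theorem resRep_apply (ρ : X →* Module.End (ZMod p) W) (H : Subgroup X) (U : Submodule (ZMod p) W)
    (hU : ∀ g ∈ H, ∀ w ∈ U, ρ g w ∈ U) (h : H) (w : U) : ((resRep ρ H U hU h w : U) : W) = ρ h w := rfl

/-- `SL(2,p)` in the action on an irreducible submodule on which `c` is injective. -/
theorem exists_uv (hp2 : p ≠ 2) (ρ : X →* Module.End (ZMod p) W) {x y : X}
    (hx : (ρ x - 1) * (ρ x - 1) = 0) (hy : (ρ y - 1) * (ρ y - 1) = 0) {U : Submodule (ZMod p) W}
    (hU : U ≠ ⊥) (hinv : ∀ g ∈ Subgroup.closure {x, y}, ∀ w ∈ U, ρ g w ∈ U)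
    (hc : ∀ w ∈ U, cc (ρ x - 1) (ρ y - 1) w = 0 → w = 0)
    (hirr : ∀ U' : Submodule (ZMod p) W, U' ≤ U → (∀ g ∈ Subgroup.closure {x, y}, ∀ w ∈ U', ρ g w ∈ U') →
        U' = ⊥ ∨ U' = U) :
    ∃ u ∈ Subgroup.closure {x, y}, ∃ v ∈ Subgroup.closure {x, y},
      (∀ w ∈ U, (ρ u - 1) ((ρ u - 1) w) = 0) ∧ (∀ w ∈ U, (ρ v - 1) ((ρ v - 1) w) = 0) ∧
      (∀ w ∈ U, (ρ u - 1) ((ρ v - 1) w) + (ρ v - 1) ((ρ u - 1) w) = w) := by
  classical
  set H := Subgroup.closure {x, y} with hH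
  have hxH : x ∈ H := Subgroup.subset_closure (by simp)
  have hyH : y ∈ H := Subgroup.subset_closure (by simp)
  have hnt : Nontrivial U := (Submodule.nontrivial_iff_ne_bot).2 hU
  let r := resRep ρ H U hinv
  have hr : ∀ (h : H) (w : U), ((r h w : U) : W) = ρ h w := fun h w => rfl
  have hr1 : ∀ (h : H) (w : U), (((r h - 1) w : U) : W) = (ρ h - 1) w := fun h w => rfl
  have hgen : Subgroup.closure ({(⟨x, hxH⟩ : H), ⟨y, hyH⟩} : Set H) = ⊤ := by
    apply Subgroup.map_injective H.subtype_injective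
    rw [MonoidHom.map_closure, ← MonoidHom.range_eq_map, H.range_subtype]
    have hset : (H.subtype '' {(⟨x, hxH⟩ : H), ⟨y, hyH⟩}) = {x, y} := by
      rw [Set.image_pair]; rfl
    rw [hset]
  have hqx : (r ⟨x, hxH⟩ - 1) * (r ⟨x, hxH⟩ - 1) = 0 := by
    apply LinearMap.ext; intro w; apply Subtype.ext
    rw [Module.End.mul_apply, hr1, hr1]
    exact congrArg (fun f : Module.End (ZMod p) W => f w) hx
  have hqy : (r ⟨y, hyH⟩ - 1) * (r ⟨y, hyH⟩ - 1) = 0 := by
    apply LinearMap.ext; intro w; apply Subtype.ext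
    rw [Module.End.mul_apply, hr1, hr1]
    exact congrArg (fun f : Module.End (ZMod p) W => f w) hy
  have hirr' : ∀ T : Submodule (ZMod p) U, (∀ h : H, ∀ w ∈ T, r h w ∈ T) → T = ⊥ ∨ T = ⊤ := by
    intro T hT
    rcases hirr (T.map U.subtype) (Submodule.map_subtype_le U T) (by
      rintro g hg _ ⟨w, hw, rfl⟩
      exact ⟨r ⟨g, hg⟩ w, hT ⟨g, hg⟩ w hw, rfl⟩) with h | h
    · left
      rw [eq_bot_iff]
      intro w hw
      have : U.subtype w ∈ T.map U.subtype := ⟨w, hw, rfl⟩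
      rw [h, Submodule.mem_bot] at this
      exact (Submodule.mem_bot _).2 (Subtype.ext this)
    · right
      rw [eq_top_iff]
      intro w _
      have : (w : W) ∈ T.map U.subtype := by rw [h]; exact w.2
      obtain ⟨w', hw', hww⟩ := this
      have : w' = w := Subtype.ext hww
      rwa [← this]
  have hne : r ⟨x, hxH⟩ * r ⟨y, hyH⟩ ≠ r ⟨y, hyH⟩ * r ⟨x, hxH⟩ := by
    intro e
    -- then `c` is nilpotent on `U`
    obtain ⟨w, hw⟩ := exists_ne (0 : U)
    set a := r ⟨x, hxH⟩ - 1 with ha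
    set b := r ⟨y, hyH⟩ - 1 with hb
    have hab : a * b = b * a := by
      rw [ha, hb, sub_mul, mul_sub, mul_sub, sub_mul, e]; noncomm_ring
    have h1 : (a * b + b * a) * (a * b + b * a) = 0 := by
      rw [← hab]
      have : (a * b + a * b) * (a * b + a * b) = (a * (b * a) * b) + (a * (b * a) * b) + (a * (b * a) * b) +
          (a * (b * a) * b) := by noncomm_ring
      rw [this, ← hab]
      have h2 : a * (a * b) * b = (a * a) * (b * b) := by noncomm_ring
      rw [h2, hqx, zero_mul]; simp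
    have h2 : ∀ w : U, (((a * b + b * a) w : U) : W) = cc (ρ x - 1) (ρ y - 1) w := by
      intro w; rfl
    have h3 := congrArg (fun f : Module.End (ZMod p) U => f w) h1
    simp only [LinearMap.zero_apply] at h3
    rw [Module.End.mul_apply] at h3
    have h4 : (((a * b + b * a) w : U) : W) = 0 := by
      apply hc _ (Subtype.mem _)
      rw [← h2, h3]; rfl
    apply hw
    apply Subtype.ext
    apply hc _ w.2
    rw [← h2, h4]
  obtain ⟨u, v, h1, h2, h3⟩ := QuadModule.main hp2 r ⟨x, hxH⟩ ⟨y, hyH⟩ hgen hqx hqy hirr' hne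
  refine ⟨u, u.2, v, v.2, ?_, ?_, ?_⟩
  · intro w hw
    have := congrArg (fun f : Module.End (ZMod p) U => ((f ⟨w, hw⟩ : U) : W)) h1
    exact this
  · intro w hw
    have := congrArg (fun f : Module.End (ZMod p) U => ((f ⟨w, hw⟩ : U) : W)) h2
    exact this
  · intro w hw
    have := congrArg (fun f : Module.End (ZMod p) U => ((f ⟨w, hw⟩ : U) : W)) h3
    exact this

omit [Finite W] in
theorem zact {a b : Module.End (ZMod p) W} {U : Submodule (ZMod p) W} (hA : ∀ w ∈ U, a w ∈ U)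
    (h1 : ∀ w ∈ U, a (a w) = 0) (h3 : ∀ w ∈ U, a (b w) + b (a w) = w) {w : W} (hw : w ∈ U) :
    (w + a w) - b (w + a w) + a ((w + a w) - b (w + a w)) = a w - b w := by
  have e3 := h3 _ (hA w hw)
  rw [h1 w hw, map_zero, add_zero] at e3
  have e4 : b (a w) = w - a (b w) := eq_sub_of_add_eq' (h3 w hw)
  simp only [map_add, map_sub, e3, h1 w hw]
  rw [e4]
  abel

omit [Finite W] in
theorem sq_neg {a b : Module.End (ZMod p) W} {U : Submodule (ZMod p) W}
    (h1 : ∀ w ∈ U, a (a w) = 0) (h2 : ∀ w ∈ U, b (b w) = 0)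
    (h3 : ∀ w ∈ U, a (b w) + b (a w) = w) {w : W} (hw : w ∈ U) :
    a (a w - b w) - b (a w - b w) = -w := by
  have e := h3 w hw
  simp only [map_sub, h1 w hw, h2 w hw]
  calc 0 - a (b w) - (b (a w) - 0) = -(a (b w) + b (a w)) := by abel
    _ = -w := by rw [e]

theorem exists_z (ρ : X →* Module.End (ZMod p) W) {u v : X} {U : Submodule (ZMod p) W}
    (hu : ∀ w ∈ U, ρ u w ∈ U) (hv : ∀ w ∈ U, ρ v w ∈ U)
    (h1 : ∀ w ∈ U, (ρ u - 1) ((ρ u - 1) w) = 0) (h2 : ∀ w ∈ U, (ρ v - 1) ((ρ v - 1) w) = 0)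
    (h3 : ∀ w ∈ U, (ρ u - 1) ((ρ v - 1) w) + (ρ v - 1) ((ρ u - 1) w) = w) :
    ∀ w ∈ U, ρ (u * v⁻¹ * u) (ρ (u * v⁻¹ * u) w) = -w := by
  have hA : ∀ w ∈ U, (ρ u - 1) w ∈ U := fun w hw => U.sub_mem (hu w hw) hw
  have hB : ∀ w ∈ U, (ρ v - 1) w ∈ U := fun w hw => U.sub_mem (hv w hw) hw
  have hinvv : ∀ w ∈ U, ρ v⁻¹ w = w - (ρ v - 1) w := by
    intro w hw
    have e1 : ρ v (w - (ρ v - 1) w) = w := by
      have e2 : ρ v (w - (ρ v - 1) w) = w - (ρ v - 1) ((ρ v - 1) w) := by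
        simp only [LinearMap.sub_apply, Module.End.one_apply, map_sub]; abel
      rw [e2, h2 w hw, sub_zero]
    calc ρ v⁻¹ w = ρ v⁻¹ (ρ v (w - (ρ v - 1) w)) := by rw [e1]
      _ = w - (ρ v - 1) w := by rw [← Module.End.mul_apply, ← map_mul, inv_mul_cancel, map_one]; rfl
  have e0 : ∀ w, ρ u w = w + (ρ u - 1) w := by
    intro w; simp only [LinearMap.sub_apply, Module.End.one_apply]; abel
  have hzw : ∀ w ∈ U, ρ (u * v⁻¹ * u) w = (ρ u - 1) w - (ρ v - 1) w := by
    intro w hw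
    have e1 : ρ (u * v⁻¹ * u) w = ρ u (ρ v⁻¹ (ρ u w)) := by
      rw [map_mul, map_mul]; rfl
    rw [e1, e0 w, hinvv _ (U.add_mem hw (hA w hw)), e0]
    exact zact hA h1 h3 hw
  intro w hw
  rw [hzw w hw, hzw _ (U.sub_mem (hA w hw) (hB w hw))]
  exact sq_neg h1 h2 h3 hw

/-- **The involution.** -/
theorem exists_involution (hp2 : p ≠ 2) (ρ : X →* Module.End (ZMod p) W) {x y : X}
    (hx : (ρ x - 1) * (ρ x - 1) = 0) (hy : (ρ y - 1) * (ρ y - 1) = 0)
    (hnp : ∃ h ∈ Subgroup.closure {x, y}, ∀ k : ℕ, ρ h ^ p ^ k ≠ 1) :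
    ∃ t ∈ Subgroup.closure {x, y}, ρ t * ρ t = 1 ∧ ρ t ≠ 1 ∧ ρ t * ρ x = ρ x * ρ t := by
  classical
  obtain ⟨h, hh, hk⟩ := hnp
  obtain ⟨U, hU, hinv, hc, hirr⟩ := exists_submodule ρ hx hy (by
    intro N hN
    obtain ⟨k, hk'⟩ := pow_eq_one_of_nilp ρ hx hy hN hh
    exact hk k hk')
  obtain ⟨u, hu, v, hv, h1, h2, h3⟩ := exists_uv hp2 ρ hx hy hU hinv hc hirr
  have hzm : u * v⁻¹ * u ∈ Subgroup.closure {x, y} := mul_mem (mul_mem hu (inv_mem hv)) hu
  have hzz := exists_z ρ (hinv u hu) (hinv v hv) h1 h2 h3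
  set z := u * v⁻¹ * u with hz
  have hfin : Finite (Module.End (ZMod p) W) :=
    Finite.of_injective (fun f : Module.End (ZMod p) W => (f : W → W)) DFunLike.coe_injective
  have hunit : IsUnit (ρ z) := (Group.isUnit z).map ρ
  have hpos : 0 < orderOf (ρ z) := by
    obtain ⟨w, hw⟩ := hunit
    rw [← hw, orderOf_units]
    exact orderOf_pos w
  have hneg : ∀ j : ℕ, ∀ w ∈ U, (ρ z ^ (2 * j)) w = (-1 : ℤ) ^ j • w := by
    intro j
    induction j with
    | zero => intro w _; simp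
    | succ j ih =>
      intro w hw
      have e : 2 * (j + 1) = 2 * j + 2 := by ring
      rw [e, pow_add, Module.End.mul_apply, sq, Module.End.mul_apply, hzz w hw, map_neg, ih w hw, pow_succ]
      simp
  have heven : Even (orderOf (ρ z)) := by
    by_contra hodd
    rw [Nat.not_even_iff_odd] at hodd
    obtain ⟨w, hw, hw0⟩ := Submodule.exists_mem_ne_zero_of_ne_bot hU
    have e1 := hneg (orderOf (ρ z)) w hw
    rw [mul_comm, pow_mul, pow_orderOf_eq_one, one_pow, hodd.neg_one_pow] at e1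
    have e2 : w = -w := by simpa using e1
    have e3 : (2 : ZMod p) • w = 0 := by
      rw [two_smul]
      nth_rewrite 2 [e2]
      exact add_neg_cancel w
    have h2ne : (2 : ZMod p) ≠ 0 := by
      intro h0
      have : ((2 : ℕ) : ZMod p) = 0 := by exact_mod_cast h0
      rw [ZMod.natCast_eq_zero_iff] at this
      exact hp2 ((Nat.prime_dvd_prime_iff_eq hp.out Nat.prime_two).1 this)
    rcases smul_eq_zero.1 e3 with h | h
    · exact h2ne h
    · exact hw0 h
  obtain ⟨k, hk2⟩ := heven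
  have hkpos : 0 < k := by omega
  have ht : z ^ k ∈ Subgroup.closure {x, y} := pow_mem hzm k
  have htt : ρ (z ^ k) * ρ (z ^ k) = 1 := by
    rw [map_pow, ← pow_add, ← hk2, pow_orderOf_eq_one]
  refine ⟨z ^ k, ht, htt, ?_, ?_⟩
  · rw [map_pow]
    intro h1
    have := orderOf_dvd_of_pow_eq_one h1
    have := Nat.le_of_dvd hkpos this
    omega
  · have hg := good_of_mem ρ hx hy ht
    have hinv : ρ (z ^ k)⁻¹ = ρ (z ^ k) := by
      calc ρ (z ^ k)⁻¹ = ρ (z ^ k)⁻¹ * (ρ (z ^ k) * ρ (z ^ k)) := by rw [htt, mul_one]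
        _ = ρ (z ^ k) := by rw [← mul_assoc, ← map_mul, inv_mul_cancel, map_one, one_mul]
    rw [hinv] at hg
    have hcm := (hg.comm hx hy).1
    set T := ρ (z ^ k) with hT
    have e1 : (2 : ZMod p) • (T * (ρ x - 1) - (ρ x - 1) * T) = 0 := by
      rw [two_smul]
      have : T * (ρ x - 1) - (ρ x - 1) * T + (T * (ρ x - 1) - (ρ x - 1) * T) =
          (T + T) * (ρ x - 1) - (ρ x - 1) * (T + T) := by noncomm_ring
      rw [this, hcm, sub_self]
    have h2ne : (2 : ZMod p) ≠ 0 := by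
      intro h0
      have : ((2 : ℕ) : ZMod p) = 0 := by exact_mod_cast h0
      rw [ZMod.natCast_eq_zero_iff] at this
      exact hp2 ((Nat.prime_dvd_prime_iff_eq hp.out Nat.prime_two).1 this)
    rcases smul_eq_zero.1 e1 with h | h
    · exact absurd h h2ne
    · have e2 : T * (ρ x - 1) - (ρ x - 1) * T = T * ρ x - ρ x * T := by noncomm_ring
      rw [e2] at h
      exact sub_eq_zero.1 h

end Cfsg.Agent.Lib.GLAMod
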