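import Cfsg.Agent.Lib.GLAMod
import Cfsg.Agent.Lib.PStabPair
import Cfsg.Agent.Lib.CFRed

/-!
Failure of `p`-stability at an element `a`: a pair `a, gag⁻¹` and an irreducible section. (helper65)
-/

set_option autoImplicit false
set_option linter.unusedSectionVars false

namespace Cfsg.Agent.Lib.GLAPair

open Subgroup Cfsg.Agent.Lib.QuadSection Cfsg.Agent.Lib.PStab Cfsg.Agent.Lib.PStabPair
open scoped commutatorElement Pointwise

universe u
variable {X : Type u} [Group X] [Finite X] {p : ℕ} [hp : Fact p.Prime]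

/-- Baer–Suzuki: if `a ∉ Dcore p C(B)` some `⟨a, gag⁻¹⟩` is not a `p`-group on `B`. -/
theorem exists_pair {B : Subgroup X} [B.Normal] {a : X} (ha : a ∉ Dcore p (centralizer (B : Set X))) :
    ∃ g : X, ∃ h ∈ closure {a, g * a * g⁻¹}, (orderOf h).Coprime p ∧ ¬ B ≤ centralizer (zpowers h : Set X) := by
  classical
  by_contra hcon
  push Not at hcon
  have hpg : ∀ g : X, ∀ h ∈ closure {a, g * a * g⁻¹}, ∃ k : ℕ, h ^ p ^ k ∈ centralizer (B : Set X) := by
    intro g h hh
    refine ⟨(orderOf h).factorization p, ?_⟩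
    have hc := hcon g _ (pow_mem hh (p ^ (orderOf h).factorization p)) (coprime_orderOf_pow h)
    rw [mem_centralizer_iff]
    intro y hy
    exact (mem_centralizer_iff.1 (hc hy) _ (mem_zpowers _)).symm
  let C := centralizer (B : Set X)
  let q : X →* X ⧸ C := QuotientGroup.mk' C
  have hq : ∀ x : X, q x = 1 ↔ x ∈ C := fun x => QuotientGroup.eq_one_iff x
  have hle : ∀ g : X, IsPGroup p ↥(zpowers (q a) ⊔ MulAut.conj (q g) • zpowers (q a)) := by
    intro g
    have hsub : zpowers (q a) ⊔ MulAut.conj (q g) • zpowers (q a) ≤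
        (closure {a, g * a * g⁻¹}).map q := by
      apply sup_le
      · rw [zpowers_le]
        exact ⟨a, subset_closure (by simp), rfl⟩
      · intro y hy
        rw [BaerSuzuki.mem_conj_smul_iff] at hy
        obtain ⟨n, hn⟩ := mem_zpowers_iff.1 hy
        have h1 : y = q (g * a ^ n * g⁻¹) := by
          rw [map_mul, map_mul, map_inv, map_zpow, hn]; group
        rw [h1]
        refine ⟨_, ?_, rfl⟩
        have h2 : g * a ^ n * g⁻¹ = (g * a * g⁻¹) ^ n := by rw [conj_zpow]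
        rw [h2]
        exact zpow_mem (subset_closure (by simp)) n
    refine IsPGroup.to_le ?_ hsub
    rintro ⟨_, x, hx, rfl⟩
    obtain ⟨k, hk⟩ := hpg g x hx
    refine ⟨k, ?_⟩
    apply Subtype.ext
    show q x ^ p ^ k = 1
    rw [← map_pow, hq]
    exact hk
  obtain ⟨M, hMn, hMp, hMa⟩ := BaerSuzuki.baer_suzuki (p := p) (zpowers (q a))
    ((hle 1).to_le le_sup_left) (by
      intro g
      obtain ⟨g', rfl⟩ := QuotientGroup.mk_surjective g
      exact hle g')
  apply ha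
  rw [mem_Dcore_iff]
  exact FactorizeQuot.le_pCore hMn hMp (hMa (mem_zpowers _))

/-- an irreducible chief factor inside `B` as a module. -/
theorem exists_chief {B : Subgroup X} [hBn : B.Normal] (hB : IsPGroup p B) {h : X} (hcop : (orderOf h).Coprime p)
    (hne : ¬ B ≤ centralizer (zpowers h : Set X)) :
    ∃ (V : Subgroup X) (hV : V.Normal) (W : Type u) (_ : AddCommGroup W) (_ : Module (ZMod p) W) (_ : Finite W)
      (π : V →* Multiplicative W) (ρ : X →* Module.End (ZMod p) W), V ≤ B ∧ Function.Surjective π ∧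
      (∀ (g : X) (v : V), ρ g (Multiplicative.toAdd (π v)) =
        Multiplicative.toAdd (π ⟨g * v * g⁻¹, hV.conj_mem v v.2 g⟩)) ∧ Nontrivial W ∧
      (∀ U : Submodule (ZMod p) W, (∀ g : X, ∀ w ∈ U, ρ g w ∈ U) → U = ⊥ ∨ U = ⊤) ∧
      ∀ k : ℕ, ρ h ^ p ^ k ≠ 1 := by
  classical
  obtain ⟨V, V₂, hVB, hVV, hHV, hHV₂, hVV₂, hcomm, hpow, hirr, hact⟩ :=
    exists_irred (H := ⊤) hB (by rw [Subgroup.normalizer_eq_top]) (mem_top h) hcop hne
  have hV : V.Normal := normalizer_eq_top_iff.1 (top_le_iff.1 hHV)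
  have hV₂ : V₂.Normal := normalizer_eq_top_iff.1 (top_le_iff.1 hHV₂)
  obtain ⟨W, _, _, _, π, hπ, hker⟩ := exists_W (p := p) hVV.le hVV₂ hcomm hpow
  obtain ⟨ρ₀, hρ₀⟩ := exists_rep (p := p) hHV π hπ (by
    intro g x hx
    rw [hker] at hx ⊢
    exact hV₂.conj_mem _ hx _)
  let ρ : X →* Module.End (ZMod p) W := ρ₀.comp (Subgroup.topEquiv (G := X)).symm.toMonoidHom
  have hρ : ∀ (g : X) (v : V), ρ g (Multiplicative.toAdd (π v)) =
        Multiplicative.toAdd (π ⟨g * v * g⁻¹, hV.conj_mem v v.2 g⟩) := fun g v => hρ₀ _ v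
  have hsurj : ∀ w : W, ∃ x : V, w = Multiplicative.toAdd (π x) := by
    intro w
    obtain ⟨x, hx⟩ := hπ (Multiplicative.ofAdd w)
    exact ⟨x, by rw [hx]; rfl⟩
  have hW : Nontrivial W := by
    obtain ⟨x, hx, hxY⟩ := SetLike.exists_of_lt hVV
    refine ⟨Multiplicative.toAdd (π ⟨x, hx⟩), 0, ?_⟩
    intro e
    apply hxY
    rw [← hker ⟨x, hx⟩]
    exact congrArg Multiplicative.ofAdd e
  refine ⟨V, hV, W, inferInstance, inferInstance, inferInstance, π, ρ, hVB, hπ, hρ, hW, ?_, ?_⟩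
  · intro U hU
    let Z : Subgroup X :=
      { carrier := {x | ∃ hx : x ∈ V, Multiplicative.toAdd (π ⟨x, hx⟩) ∈ U}
        one_mem' := ⟨one_mem _, by
          have : (⟨1, one_mem V⟩ : V) = 1 := rfl
          rw [this, map_one]; exact U.zero_mem⟩
        mul_mem' := by
          rintro x y ⟨hx, hx'⟩ ⟨hy, hy'⟩
          refine ⟨mul_mem hx hy, ?_⟩
          have : (⟨x * y, mul_mem hx hy⟩ : V) = ⟨x, hx⟩ * ⟨y, hy⟩ := rfl
          rw [this, map_mul]
          exact U.add_mem hx' hy'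
        inv_mem' := by
          rintro x ⟨hx, hx'⟩
          refine ⟨inv_mem hx, ?_⟩
          have : (⟨x⁻¹, inv_mem hx⟩ : V) = (⟨x, hx⟩ : V)⁻¹ := rfl
          rw [this, map_inv]
          exact U.neg_mem hx' }
    have hZ : ∀ x : V, (x : X) ∈ Z ↔ Multiplicative.toAdd (π x) ∈ U := by
      intro x
      constructor
      · rintro ⟨_, h⟩; exact h
      · intro h; exact ⟨x.2, h⟩
    have hYZ : V₂ ≤ Z := by
      intro y hy
      have h1 := (hker ⟨y, hVV.le hy⟩).2 hy
      refine ⟨hVV.le hy, ?_⟩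
      rw [h1]; exact U.zero_mem
    have hZX : Z ≤ V := by rintro x ⟨hx, _⟩; exact hx
    have hHZ : (⊤ : Subgroup X) ≤ normalizer (Z : Set X) := by
      have key : ∀ g : X, ∀ z ∈ Z, g * z * g⁻¹ ∈ Z := by
        rintro g z ⟨hz, hz'⟩
        have h1 := hU g _ hz'
        rw [hρ] at h1
        exact ⟨_, h1⟩
      intro g hg
      rw [mem_normalizer_iff]
      intro z
      refine ⟨key g z, fun hz => ?_⟩
      have h1 := key g⁻¹ _ hz
      have h2 : g⁻¹ * (g * z * g⁻¹) * g⁻¹⁻¹ = z := by group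
      rwa [h2] at h1
    rcases hirr Z hYZ hZX hHZ with e | e
    · left
      rw [eq_bot_iff]
      intro w hw
      obtain ⟨x, rfl⟩ := hsurj w
      rw [← hZ, e, ← hker] at hw
      rw [Submodule.mem_bot, hw]; rfl
    · right
      rw [eq_top_iff]
      intro w _
      obtain ⟨x, rfl⟩ := hsurj w
      rw [← hZ, e]
      exact x.2
  · intro k hk
    have h1 : ρ h ^ orderOf h = 1 := by rw [← map_pow, pow_orderOf_eq_one, map_one]
    have h2 : ρ h = 1 := by
      have h3 : orderOf (ρ h) ∣ 1 := by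
        have := Nat.dvd_gcd (orderOf_dvd_of_pow_eq_one h1) (orderOf_dvd_of_pow_eq_one hk)
        rwa [Nat.Coprime.gcd_eq_one (Nat.Coprime.pow_right k hcop)] at this
      exact orderOf_eq_one_iff.1 (Nat.dvd_one.1 h3)
    apply hact
    intro x hx
    have h3 := hρ h ⟨x, hx⟩
    rw [h2] at h3
    have h4 : π ⟨h * x * h⁻¹, hV.conj_mem x hx h⟩ = π ⟨x, hx⟩ := congrArg Multiplicative.ofAdd h3.symm
    have h5 : π (⟨x, hx⟩ * (⟨h * x * h⁻¹, hV.conj_mem x hx h⟩ : V)⁻¹) = 1 := by
      rw [map_mul, map_inv, h4, mul_inv_cancel]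
    rw [hker] at h5
    have h6 : ⁅x, h⁆ = x * (h * x * h⁻¹)⁻¹ := by rw [commutatorElement_def]; group
    rw [h6]
    exact h5

end Cfsg.Agent.Lib.GLAPair
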