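import Cfsg.Agent.Lib.QuadModule
import Mathlib.Algebra.Ring.Subring.Basic
import Mathlib.Tactic.NoncommRing

/-!
Groups generated by two quadratic elements `1 + α`, `1 + β` of a ring: the elements have "trace" in the
commutative subring generated by `αβ + βα`. (helper65)
-/

set_option autoImplicit false

namespace Cfsg.Agent.Lib.GLAQuad

section Ring
variable {E : Type*} [Ring E]

/-- `αβ + βα` -/
def cc (α β : E) : E := α * β + β * α

/-- the subring generated by `αβ + βα` -/
def Lam (α β : E) : Subring E := Subring.closure {cc α β}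

theorem cc_mem (α β : E) : cc α β ∈ Lam α β := Subring.subset_closure rfl

theorem cc_comm_left {α β : E} (hα : α * α = 0) : cc α β * α = α * cc α β := by
  unfold cc
  rw [add_mul, mul_add, mul_assoc β α α, hα, mul_zero, add_zero, ← mul_assoc α α β, hα, zero_mul, zero_add,
    mul_assoc]

theorem cc_comm_right {α β : E} (hβ : β * β = 0) : cc α β * β = β * cc α β := by
  unfold cc
  rw [add_mul, mul_add, mul_assoc α β β, hβ, mul_zero, zero_add, ← mul_assoc β β α, hβ, zero_mul, add_zero,
    mul_assoc]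

theorem lam_comm {α β : E} {y : E} (hy : cc α β * y = y * cc α β) {l : E} (hl : l ∈ Lam α β) :
    l * y = y * l := by
  induction hl using Subring.closure_induction with
  | mem x hx => rw [Set.mem_singleton_iff.1 hx, hy]
  | zero => simp
  | one => simp
  | add x y _ _ hx hy => rw [add_mul, mul_add, hx, hy]
  | neg x _ hx => rw [neg_mul, mul_neg, hx]
  | mul x y _ _ hx hy => rw [mul_assoc, hy, ← mul_assoc, hx, mul_assoc]

theorem lam_comm_lam {α β : E} {l m : E} (hl : l ∈ Lam α β) (hm : m ∈ Lam α β) : l * m = m * l :=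
  lam_comm (lam_comm rfl hm).symm hl

/-- the normal form of the elements of the group generated by `1 + α` and `1 + β`. -/
def Good (α β h h' : E) : Prop :=
  ∃ f ∈ Lam α β, ∃ g ∈ Lam α β, ∃ k ∈ Lam α β, ∃ l ∈ Lam α β,
    h = 1 + cc α β * f + g * α + k * β + l * (α * β) ∧
    h' = 1 + cc α β * f + l * cc α β - g * α - k * β - l * (α * β)

variable {α β : E}

theorem good_one : Good α β 1 1 :=
  ⟨0, zero_mem _, 0, zero_mem _, 0, zero_mem _, 0, zero_mem _, by simp, by simp⟩

theorem good_left (hα : α * α = 0) (hβ : β * β = 0) {h h' t : E} (ht : t ∈ Lam α β)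
    (hg : Good α β h h') : Good α β ((1 + t * α) * h) (h' * (1 - t * α)) := by
  obtain ⟨f, hf, g, hgm, k, hk, l, hl, rfl, rfl⟩ := hg
  have hc := cc_mem α β
  have ca : ∀ x ∈ Lam α β, x * α = α * x := fun x hx => lam_comm (cc_comm_left hα) hx
  have cb : ∀ x ∈ Lam α β, x * β = β * x := fun x hx => lam_comm (cc_comm_right hβ) hx
  have cl : ∀ x ∈ Lam α β, ∀ y ∈ Lam α β, x * y = y * x := fun x hx y hy => lam_comm_lam hx hy
  have hba : β * α = cc α β - α * β := by unfold cc; abel
  have haba : α * β * α = cc α β * α := by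
    unfold cc; rw [add_mul, mul_assoc β α α, hα, mul_zero, add_zero]
  refine ⟨f, hf, g + t * (1 + cc α β * f), ?_, k, hk, l + t * k, ?_, ?_, ?_⟩
  · exact add_mem hgm (mul_mem ht (add_mem (one_mem _) (mul_mem hc hf)))
  · exact add_mem hl (mul_mem ht hk)
  · have e1 : t * α * (cc α β * f) = t * (cc α β * f) * α := by
      rw [mul_assoc, ← ca _ (mul_mem hc hf), ← mul_assoc]
    have e2 : t * α * (g * α) = 0 := by
      rw [mul_assoc, ← mul_assoc α g α, ← ca g hgm, mul_assoc g, hα, mul_zero, mul_zero]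
    have e3 : t * α * (k * β) = t * k * (α * β) := by
      rw [mul_assoc, ← mul_assoc α k β, ← ca k hk]; simp only [mul_assoc]
    have e4 : t * α * (l * (α * β)) = 0 := by
      rw [mul_assoc, ← mul_assoc α l, ← ca l hl, mul_assoc l, ← mul_assoc α α β, hα, zero_mul, mul_zero, mul_zero]
    simp only [mul_add, add_mul, one_mul, mul_one, e1, e2, e3, e4]
    abel
  · have e0 : cc α β * f * (t * α) = t * (cc α β * f) * α := by
      rw [← mul_assoc, cl _ (mul_mem hc hf) _ ht]
    have e1 : l * cc α β * (t * α) = l * t * (cc α β * α) := by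
      rw [mul_assoc, ← mul_assoc (cc α β) t α, cl _ hc _ ht]; simp only [mul_assoc]
    have e2 : g * α * (t * α) = 0 := by
      rw [mul_assoc, ← mul_assoc α t α, ← ca t ht, mul_assoc t, hα, mul_zero, mul_zero]
    have e3 : k * β * (t * α) = t * k * cc α β - t * k * (α * β) := by
      rw [mul_assoc, ← mul_assoc β t α, ← cb t ht, mul_assoc t β α, hba, ← mul_assoc, cl _ hk _ ht, mul_sub]
    have e4 : l * (α * β) * (t * α) = l * t * (cc α β * α) := by
      have : (α * β) * (t * α) = t * (α * β * α) := by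
        rw [← mul_assoc, mul_assoc α β t, ← cb t ht, ← mul_assoc α t β, ← ca t ht]; simp only [mul_assoc]
      rw [mul_assoc, this, haba, ← mul_assoc]
    simp only [mul_add, add_mul, mul_sub, sub_mul, one_mul, mul_one, e0, e1, e2, e3, e4]
    abel

theorem good_right (hα : α * α = 0) (hβ : β * β = 0) {h h' t : E} (ht : t ∈ Lam α β)
    (hg : Good α β h h') : Good α β ((1 + t * β) * h) (h' * (1 - t * β)) := by
  obtain ⟨f, hf, g, hgm, k, hk, l, hl, rfl, rfl⟩ := hg
  have hc := cc_mem α β
  have ca : ∀ x ∈ Lam α β, x * α = α * x := fun x hx => lam_comm (cc_comm_left hα) hx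
  have cb : ∀ x ∈ Lam α β, x * β = β * x := fun x hx => lam_comm (cc_comm_right hβ) hx
  have cl : ∀ x ∈ Lam α β, ∀ y ∈ Lam α β, x * y = y * x := fun x hx y hy => lam_comm_lam hx hy
  have hba : β * α = cc α β - α * β := by unfold cc; abel
  have hbab : β * (α * β) = cc α β * β := by
    unfold cc; rw [add_mul, mul_assoc α β β, hβ, mul_zero, zero_add, mul_assoc]
  refine ⟨f + t * g, ?_, g, hgm, k + t * (1 + cc α β * f) + t * l * cc α β, ?_, l - t * g, ?_, ?_, ?_⟩
  · exact add_mem hf (mul_mem ht hgm)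
  · exact add_mem (add_mem hk (mul_mem ht (add_mem (one_mem _) (mul_mem hc hf)))) (mul_mem (mul_mem ht hl) hc)
  · exact sub_mem hl (mul_mem ht hgm)
  · have e1 : t * β * (cc α β * f) = t * (cc α β * f) * β := by
      rw [mul_assoc, ← cb _ (mul_mem hc hf), ← mul_assoc]
    have e2 : t * β * (g * α) = cc α β * (t * g) - t * g * (α * β) := by
      rw [mul_assoc, ← mul_assoc β g α, ← cb g hgm, mul_assoc g β α, hba, ← mul_assoc, mul_sub,
        cl (t * g) (mul_mem ht hgm) _ hc]
    have e3 : t * β * (k * β) = 0 := by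
      rw [mul_assoc, ← mul_assoc β k β, ← cb k hk, mul_assoc k, hβ, mul_zero, mul_zero]
    have e4 : t * β * (l * (α * β)) = t * l * cc α β * β := by
      rw [mul_assoc, ← mul_assoc β l, ← cb l hl, mul_assoc l, hbab]; simp only [mul_assoc]
    simp only [mul_add, add_mul, sub_mul, one_mul, mul_one, e1, e2, e3, e4]
    abel
  · have e0 : cc α β * f * (t * β) = t * (cc α β * f) * β := by
      rw [← mul_assoc, cl _ (mul_mem hc hf) _ ht]
    have e1 : l * cc α β * (t * β) = t * l * cc α β * β := by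
      rw [← mul_assoc, cl _ (mul_mem hl hc) _ ht]; simp only [mul_assoc]
    have e2 : g * α * (t * β) = t * g * (α * β) := by
      rw [mul_assoc, ← mul_assoc α t β, ← ca t ht, mul_assoc t, ← mul_assoc, cl _ hgm _ ht]
    have e3 : k * β * (t * β) = 0 := by
      rw [mul_assoc, ← mul_assoc β t β, ← cb t ht, mul_assoc t, hβ, mul_zero, mul_zero]
    have e4 : l * (α * β) * (t * β) = 0 := by
      rw [mul_assoc, mul_assoc α β, ← mul_assoc β t β, ← cb t ht, mul_assoc t, hβ, mul_zero, mul_zero, mul_zero]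
    have e5 : cc α β * (t * g) = t * g * cc α β := cl _ hc _ (mul_mem ht hgm)
    simp only [mul_add, add_mul, mul_sub, sub_mul, one_mul, mul_one, e0, e1, e2, e3, e4, e5]
    abel

theorem inv_quad {H : Type*} [Group H] (ρ : H →* E) {x : H} (hx : (ρ x - 1) * (ρ x - 1) = 0) :
    ρ x⁻¹ = 1 - (ρ x - 1) := by
  have h1 : ρ x⁻¹ * ρ x = 1 := by rw [← map_mul, inv_mul_cancel, map_one]
  have h2 : ρ x * (1 - (ρ x - 1)) = 1 := by
    have : ρ x * (1 - (ρ x - 1)) = 1 - (ρ x - 1) * (ρ x - 1) := by noncomm_ring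
    rw [this, hx, sub_zero]
  calc ρ x⁻¹ = ρ x⁻¹ * (ρ x * (1 - (ρ x - 1))) := by rw [h2, mul_one]
    _ = 1 - (ρ x - 1) := by rw [← mul_assoc, h1, one_mul]

/-- all the elements of `⟨x, y⟩` are in normal form. -/
theorem good_of_mem {H : Type*} [Group H] (ρ : H →* E) {x y : H} (hx : (ρ x - 1) * (ρ x - 1) = 0)
    (hy : (ρ y - 1) * (ρ y - 1) = 0) {h : H} (hh : h ∈ Subgroup.closure {x, y}) :
    Good (ρ x - 1) (ρ y - 1) (ρ h) (ρ h⁻¹) := by
  have h1 : (1 : E) ∈ Lam (ρ x - 1) (ρ y - 1) := one_mem _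
  have h2 : (-1 : E) ∈ Lam (ρ x - 1) (ρ y - 1) := neg_mem h1
  induction hh using Subgroup.closure_induction_left with
  | one => rw [inv_one, map_one]; exact good_one
  | mul_left a ha b _ ih =>
    rw [mul_inv_rev, map_mul, map_mul]
    rcases ha with rfl | ha
    · have := good_left hx hy h1 ih
      rw [inv_quad ρ hx]
      have e1 : (1 : E) + 1 * (ρ a - 1) = ρ a := by noncomm_ring
      have e2 : (1 : E) - 1 * (ρ a - 1) = 1 - (ρ a - 1) := by noncomm_ring
      rwa [e1, e2] at this
    · rw [Set.mem_singleton_iff.1 ha]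
      have := good_right hx hy h1 ih
      rw [inv_quad ρ hy]
      have e1 : (1 : E) + 1 * (ρ y - 1) = ρ y := by noncomm_ring
      have e2 : (1 : E) - 1 * (ρ y - 1) = 1 - (ρ y - 1) := by noncomm_ring
      rwa [e1, e2] at this
  | inv_mul_cancel a ha b _ ih =>
    rw [mul_inv_rev, inv_inv, map_mul, map_mul]
    rcases ha with rfl | ha
    · have := good_left hx hy h2 ih
      rw [inv_quad ρ hx]
      have e1 : (1 : E) + -1 * (ρ a - 1) = 1 - (ρ a - 1) := by noncomm_ring
      have e2 : (1 : E) - -1 * (ρ a - 1) = ρ a := by noncomm_ring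
      rwa [e1, e2] at this
    · rw [Set.mem_singleton_iff.1 ha]
      have := good_right hx hy h2 ih
      rw [inv_quad ρ hy]
      have e1 : (1 : E) + -1 * (ρ y - 1) = 1 - (ρ y - 1) := by noncomm_ring
      have e2 : (1 : E) - -1 * (ρ y - 1) = ρ y := by noncomm_ring
      rwa [e1, e2] at this

theorem Good.comm (hα : α * α = 0) (hβ : β * β = 0) {h h' : E} (hg : Good α β h h') :
    (h + h') * α = α * (h + h') ∧ (h + h') * β = β * (h + h') := by
  obtain ⟨f, hf, g, hgm, k, hk, l, hl, rfl, rfl⟩ := hg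
  have hc := cc_mem α β
  have e : (1 + cc α β * f + g * α + k * β + l * (α * β)) +
      (1 + cc α β * f + l * cc α β - g * α - k * β - l * (α * β)) =
      (1 + cc α β * f) + (1 + cc α β * f) + l * cc α β := by abel
  rw [e]
  have hm : (1 + cc α β * f) + (1 + cc α β * f) + l * cc α β ∈ Lam α β :=
    add_mem (add_mem (add_mem (one_mem _) (mul_mem hc hf)) (add_mem (one_mem _) (mul_mem hc hf)))
      (mul_mem hl hc)
  exact ⟨lam_comm (cc_comm_left hα) hm, lam_comm (cc_comm_right hβ) hm⟩

/-- `cc` commutes with everything in normal form. -/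
theorem Good.comm_cc (hα : α * α = 0) (hβ : β * β = 0) {h h' : E} (hg : Good α β h h') :
    cc α β * h = h * cc α β := by
  obtain ⟨f, hf, g, hgm, k, hk, l, hl, rfl, -⟩ := hg
  have hc := cc_mem α β
  have c1 := cc_comm_left (β := β) hα
  have c2 := cc_comm_right (α := α) hβ
  have hf' := lam_comm_lam hc hf
  have hg' := lam_comm_lam hc hgm
  have hk' := lam_comm_lam hc hk
  have hl' := lam_comm_lam hc hl
  have key : ∀ u v : E, cc α β * u = u * cc α β → cc α β * v = v * cc α β →
      cc α β * (u * v) = (u * v) * cc α β := by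
    intro u v hu hv
    rw [← mul_assoc, hu, mul_assoc, hv, mul_assoc]
  have e1 := key _ _ (rfl : cc α β * cc α β = _) hf'
  have e2 := key _ _ hg' c1
  have e3 := key _ _ hk' c2
  have e4 := key _ _ hl' (key _ _ c1 c2)
  simp only [mul_add, add_mul, mul_one, one_mul]
  rw [e1, e2, e3, e4]

theorem Good.sq_sub_one {h h' : E} (hg : Good α β h h')
    (hh : h' * h = 1) : ∃ m ∈ Lam α β, (h - 1) * (h - 1) = cc α β * (m * h) := by
  obtain ⟨f, hf, g, hgm, k, hk, l, hl, h1, h2⟩ := hg
  have hc := cc_mem α β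
  refine ⟨f + f + l, add_mem (add_mem hf hf) hl, ?_⟩
  have e : h + h' = (1 + cc α β * f) + (1 + cc α β * f) + l * cc α β := by rw [h1, h2]; abel
  have e2 : (h - 1) * (h - 1) = (h + h') * h - h - h := by
    rw [add_mul, hh]; noncomm_ring
  rw [e2, e, lam_comm_lam hl hc]
  noncomm_ring

/-- If `αβ + βα` is nilpotent, the elements of `⟨1 + α, 1 + β⟩` are unipotent. -/
theorem Good.nilp (hα : α * α = 0) (hβ : β * β = 0) {h h' : E} (hg : Good α β h h')
    (hh : h' * h = 1) {N : ℕ} (hN : cc α β ^ N = 0) : (h - 1) ^ (2 * N) = 0 := by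
  obtain ⟨m, hm, e⟩ := hg.sq_sub_one hh
  have hc := cc_mem α β
  have h1 : Commute (cc α β) (m * h) := by
    have h2 := lam_comm_lam hc hm
    have h3 := hg.comm_cc hα hβ
    show cc α β * (m * h) = (m * h) * cc α β
    rw [← mul_assoc, h2, mul_assoc, h3, mul_assoc]
  rw [pow_mul, sq, e, h1.mul_pow, hN, zero_mul]

end Ring

end Cfsg.Agent.Lib.GLAQuad
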