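import Cfsg.Agent.Lib.GLAMain
import Cfsg.Agent.Lib.TwoClosed

/-!
The property "some `p`-subgroup has an automizer of even order" climbs to `N(Z(J(S)))`. (helper65)
-/

set_option autoImplicit false
set_option linter.unusedSectionVars false

namespace Cfsg.Agent.Lib.GLAReal

open Cfsg.Agent.Lib.CFSylow Cfsg.Agent.Lib.CFFusion Cfsg.Agent.Lib.CFControl
  Cfsg.Agent.Lib.CFMin Cfsg.Agent.Lib.CFMain Cfsg.Agent.Lib.GLAStab Cfsg.Agent.Lib.GLARed Cfsg.Agent.Lib.GLAMain

universe u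

section
variable {p : ℕ} [Fact p.Prime]

/-- lifting a witness through a surjective homomorphism. -/
theorem lift_witness {X Y : Type u} [Group X] [Group Y] [Finite X] [Finite Y] {f : X →* Y}
    (hf : Function.Surjective f) {Q : Subgroup Y} (hQ : IsPGroup p Q) {g : Y} (hg : g ∈ nz Q) :
    ∃ (Q' : Subgroup X) (g' : X), IsPGroup p Q' ∧ g' ∈ nz Q' ∧ Q'.map f = Q ∧ f g' = g := by
  classical
  set E := Q.comap f with hE
  have hEmap : E.map f = Q := Subgroup.map_comap_eq_self_of_surjective hf Q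
  obtain ⟨T, hT⟩ := exists_sylIn p E
  -- `T` maps onto `Q`
  have hTmap : T.map f = Q := by
    have h1 : T.map f ≤ Q := by rw [← hEmap]; exact Subgroup.map_mono hT.le
    -- the index is both a `p`-power and prime to `p`
    have h2 : (T.map f).relIndex Q ∣ T.relIndex E := by
      have h3 : (T.map f).relIndex Q = ((T.map f).comap f).relIndex E := by
        rw [Subgroup.relIndex_comap, hEmap]
      rw [h3]
      exact Subgroup.relIndex_dvd_of_le_left E (Subgroup.le_comap_map f T)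
    have h4 : ¬ p ∣ (T.map f).relIndex Q := fun h => hT.not_dvd (h.trans h2)
    obtain ⟨n, hn⟩ := hQ.index ((T.map f).subgroupOf Q)
    have h5 : (T.map f).relIndex Q = p ^ n := hn
    rw [h5] at h4
    have h6 : n = 0 := by
      by_contra h
      exact h4 (dvd_pow_self p h)
    rw [h6, pow_zero] at h5
    exact le_antisymm h1 (Subgroup.relIndex_eq_one.1 h5)
  obtain ⟨g₀, rfl⟩ := hf g
  have hg₀ : cj g₀ E = E := by
    ext x
    rw [mem_cj, hE, Subgroup.mem_comap, Subgroup.mem_comap, map_mul, map_mul, map_inv]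
    have := mem_normalizer.1 hg
    rw [← mem_cj, this]
  have h2 : SylIn p (cj g₀ T) E := by
    have := hT.conj g₀
    rwa [hg₀] at this
  obtain ⟨e, he, heT⟩ := h2.exists_conj_eq hT
  -- `e * g₀` normalizes `T`; correct it
  have h3 : f e ∈ T.map f := by rw [hTmap]; exact he
  obtain ⟨t, ht, hte⟩ := h3
  refine ⟨T, t⁻¹ * (e * g₀), hT.isPGroup, ?_, hTmap, ?_⟩
  · refine mul_mem (inv_mem (Subgroup.le_normalizer ht)) ?_
    rw [mem_normalizer, ← cj_cj, heT]
  · rw [map_mul, map_mul, map_inv, hte]; group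

theorem pow_conj_eq {X : Type u} [Group X] {Q : Subgroup X} {g y c : X} (hy : y ∈ nz Q) (hc : c ∈ cz Q)
    (e : g = y * c) : ∀ m : ℕ, ∀ q ∈ Q, g ^ m * q * (g ^ m)⁻¹ = y ^ m * q * (y ^ m)⁻¹ := by
  intro m
  induction m with
  | zero => intro q _; simp
  | succ m ih =>
    intro q hq
    have h1 : g ^ (m + 1) * q * (g ^ (m + 1))⁻¹ = g * (g ^ m * q * (g ^ m)⁻¹) * g⁻¹ := by
      rw [pow_succ']; group
    have h2 : y ^ (m + 1) * q * (y ^ (m + 1))⁻¹ = y * (y ^ m * q * (y ^ m)⁻¹) * y⁻¹ := by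
      rw [pow_succ']; group
    have h3 : y ^ m * q * (y ^ m)⁻¹ ∈ Q := by
      have := mem_normalizer.1 (pow_mem hy m)
      rw [← this]; exact conj_mem_cj hq
    rw [h1, h2, ih q hq, e]
    have h4 := mem_centralizer.1 hc _ h3
    calc y * c * (y ^ m * q * (y ^ m)⁻¹) * (y * c)⁻¹ = y * (c * (y ^ m * q * (y ^ m)⁻¹) * c⁻¹) * y⁻¹ := by group
      _ = _ := by rw [h4]

theorem rel_climb : Climb p (REl.{u} p) where
  mono := rel_mono
  quot := by
    rintro X Y _ _ _ _ f hf ⟨Q, hQ, g, hg, hm⟩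
    obtain ⟨Q', g', hQ', hg', rfl, rfl⟩ := lift_witness hf hQ hg
    refine ⟨Q', hQ', g', hg', ?_⟩
    intro m hmo hc
    apply hm m hmo
    rw [mem_centralizer] at hc ⊢
    rintro _ ⟨q, hq, rfl⟩
    rw [← map_pow, ← map_inv, ← map_mul, ← map_mul, hc q hq]
  fus := by
    rintro X _ _ S V hS hSV hSF ⟨Q, hQ, g, hg, hm⟩
    obtain ⟨x, -, hx⟩ := hS.exists_conj_le hQ le_top
    -- move the witness
    have hg' : x * g * x⁻¹ ∈ nz (cj x Q) := by
      rw [← CFLocal.cj_nz]; exact conj_mem_cj hg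
    obtain ⟨y, hy, c, hc, e⟩ := hSF _ hx _ (Subgroup.mem_top _) (by rw [mem_normalizer.1 hg']; exact hx)
    have hyn : y ∈ nz (cj x Q) := by
      have h1 := mul_mem hg' (inv_mem (centralizer_le_normalizer _ hc))
      rw [e] at h1
      simpa using h1
    refine rel_of_sub (hx.trans hSV) (isPGroup_cj hQ) hy.2 hyn ?_
    intro m hmo hcm
    apply hm m hmo
    rw [mem_centralizer]
    intro q hq
    have h1 := pow_conj_eq hyn hc e m (x * q * x⁻¹) (conj_mem_cj hq)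
    rw [mem_centralizer.1 hcm _ (conj_mem_cj hq)] at h1
    have h2 : (x * g * x⁻¹) ^ m = x * g ^ m * x⁻¹ := conj_pow
    rw [h2] at h1
    have h3 : x * g ^ m * x⁻¹ * (x * q * x⁻¹) * (x * g ^ m * x⁻¹)⁻¹ = x * (g ^ m * q * (g ^ m)⁻¹) * x⁻¹ := by group
    rw [h3] at h1
    have h4 : g ^ m * q * (g ^ m)⁻¹ = x⁻¹ * (x * (g ^ m * q * (g ^ m)⁻¹) * x⁻¹) * x := by group
    rw [h4, h1]; group

/-- a witness produces an inverted element. -/
theorem exists_inverted {X : Type u} [Group X] [Finite X] {Q : Subgroup X} {g : X} (hg : g ∈ nz Q)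
    (hm : ∀ m : ℕ, Odd m → g ^ m ∉ cz Q) : ∃ y ∈ Q, y ≠ 1 ∧ ∃ t : X, t * y * t⁻¹ = y⁻¹ := by
  classical
  obtain ⟨k, m, hmo, hk⟩ := Nat.exists_eq_two_pow_mul_odd (orderOf_pos g).ne'
  set t := g ^ m with ht
  have htn : t ∈ nz Q := pow_mem hg m
  have h1 : t ∉ cz Q := hm m hmo
  have h2 : t ^ 2 ^ k ∈ cz Q := by
    have : t ^ 2 ^ k = 1 := by rw [ht, ← pow_mul, mul_comm, ← hk, pow_orderOf_eq_one]
    rw [this]; exact one_mem _
  -- the first power of two in the centralizer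
  have hex : ∃ j, t ^ 2 ^ j ∈ cz Q := ⟨k, h2⟩
  set j := Nat.find hex with hj
  have hj1 : t ^ 2 ^ j ∈ cz Q := Nat.find_spec hex
  have hj0 : j ≠ 0 := by
    intro h
    rw [h, pow_zero, pow_one] at hj1
    exact h1 hj1
  obtain ⟨i, hi⟩ := Nat.exists_eq_succ_of_ne_zero hj0
  have hi1 : t ^ 2 ^ i ∉ cz Q := Nat.find_min hex (by rw [← hj, hi]; exact Nat.lt_succ_self i)
  set s := t ^ 2 ^ i with hs
  have hsn : s ∈ nz Q := pow_mem htn _
  have hss : s * s ∈ cz Q := by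
    have : s * s = t ^ 2 ^ j := by rw [hs, hi, ← pow_add, pow_succ, mul_two]
    rw [this]; exact hj1
  rw [mem_centralizer] at hi1
  push Not at hi1
  obtain ⟨q, hq, hqs⟩ := hi1
  have hsq : s * q * s⁻¹ ∈ Q := by
    have := mem_normalizer.1 hsn
    rw [← this]; exact conj_mem_cj hq
  refine ⟨q⁻¹ * (s * q * s⁻¹), mul_mem (inv_mem hq) hsq, ?_, s, ?_⟩
  · intro h
    exact hqs (inv_mul_eq_one.1 h).symm
  · have h3 := mem_centralizer.1 hss q hq
    calc s * (q⁻¹ * (s * q * s⁻¹)) * s⁻¹ = (s * q * s⁻¹)⁻¹ * (s * s * q * (s * s)⁻¹) := by group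
      _ = (s * q * s⁻¹)⁻¹ * q := by rw [h3]
      _ = (q⁻¹ * (s * q * s⁻¹))⁻¹ := by group

/-- an inverted `p`-element is a witness (`p` odd). -/
theorem rel_of_inverted (hp2 : p ≠ 2) {X : Type u} [Group X] [Finite X] {x g : X} {k : ℕ} (hx : orderOf x = p ^ k)
    (hx1 : x ≠ 1) (hg : g * x * g⁻¹ = x⁻¹) : REl p X := by
  refine ⟨Subgroup.zpowers x, ?_, g, ?_, ?_⟩
  · exact IsPGroup.of_card (n := k) (by rw [Nat.card_zpowers, hx])
  · refine mem_normalizer_of_le ?_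
    rintro _ ⟨_, ⟨n, rfl⟩, rfl⟩
    refine ⟨-n, ?_⟩
    simp only [MulEquiv.coe_toMonoidHom, MulAut.conj_apply]
    rw [← conj_zpow, hg, inv_zpow, zpow_neg]
  · intro m hm hc
    have h1 : ∀ n : ℕ, g ^ (2 * n) * x * (g ^ (2 * n))⁻¹ = x := by
      intro n
      induction n with
      | zero => simp
      | succ n ih =>
        have e : 2 * (n + 1) = 2 * n + 2 := by ring
        have h2 : g * g * x * (g * g)⁻¹ = x := by
          calc g * g * x * (g * g)⁻¹ = g * (g * x * g⁻¹) * g⁻¹ := by group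
            _ = g * x⁻¹ * g⁻¹ := by rw [hg]
            _ = (g * x * g⁻¹)⁻¹ := by group
            _ = x := by rw [hg, inv_inv]
        calc g ^ (2 * (n + 1)) * x * (g ^ (2 * (n + 1)))⁻¹ = g ^ (2 * n) * (g * g * x * (g * g)⁻¹) * (g ^ (2 * n))⁻¹ := by
              rw [e, pow_add, sq]; group
          _ = x := by rw [h2, ih]
    obtain ⟨n, rfl⟩ := hm
    have h2 := mem_centralizer.1 hc x (Subgroup.mem_zpowers x)
    have h3 : g ^ (2 * n + 1) * x * (g ^ (2 * n + 1))⁻¹ = x⁻¹ := by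
      calc g ^ (2 * n + 1) * x * (g ^ (2 * n + 1))⁻¹ = g * (g ^ (2 * n) * x * (g ^ (2 * n))⁻¹) * g⁻¹ := by
            rw [pow_succ']; group
        _ = x⁻¹ := by rw [h1, hg]
    rw [h2] at h3
    have h4 : x ^ 2 = 1 := by rw [sq]; nth_rewrite 2 [h3]; exact mul_inv_cancel x
    have h5 := orderOf_dvd_of_pow_eq_one h4
    rw [hx] at h5
    have hk : k ≠ 0 := by
      rintro rfl
      rw [pow_zero, orderOf_eq_one_iff] at hx
      exact hx1 hx
    have h6 : p ∣ 2 := (dvd_pow_self p hk).trans h5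
    exact hp2 ((Nat.prime_dvd_prime_iff_eq Fact.out Nat.prime_two).1 h6)

/-- If `X` has an inverted `p`-element, `N(Z(J(S)))` inverts a non-trivial element of `S`. -/
theorem exists_in_normalizer (hp2 : p ≠ 2) {X : Type u} [Group X] [Finite X] {S : Subgroup X} (hS : SylIn p S ⊤)
    (h : REl p X) : ∃ x ∈ S, x ≠ 1 ∧ ∃ g ∈ nz (zj S), g * x * g⁻¹ = x⁻¹ := by
  obtain ⟨Q, hQ, g, hg, hm⟩ := climb hp2 rel_climb (rel_key hp2) hS h
  obtain ⟨y, hy, hy1, t, ht⟩ := exists_inverted hg hm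
  have hc := CFSection.isConjugacyFunctor_induced (X := X) (ClosedPS.isChar_Wab (p := p))
  have hle := le_nz_functor hc hS.isPGroup
  rw [ind_eq] at hle
  have hSN : SylIn p S (nz (zj S)) := hS.of_le hle le_top
  -- conjugate `y` into `S`
  have hQ' : IsPGroup p (Q.map (nz (zj S)).subtype) := hQ.map _
  obtain ⟨x, hx, hxQ⟩ := hSN.exists_conj_le hQ' (Subgroup.map_subtype_le _)
  refine ⟨x * y * x⁻¹, hxQ (conj_mem_cj ⟨y, hy, rfl⟩), ?_, x * t * x⁻¹,
    mul_mem (mul_mem hx t.2) (inv_mem hx), ?_⟩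
  · intro h1
    apply hy1
    have : (y : X) = 1 := by
      calc (y : X) = x⁻¹ * (x * y * x⁻¹) * x := by group
        _ = 1 := by rw [h1]; group
    exact Subtype.ext this
  · have ht' : (t : X) * y * (t : X)⁻¹ = (y : X)⁻¹ := congrArg Subtype.val ht
    calc x * t * x⁻¹ * (x * y * x⁻¹) * (x * t * x⁻¹)⁻¹ = x * ((t : X) * y * (t : X)⁻¹) * x⁻¹ := by group
      _ = (x * y * x⁻¹)⁻¹ := by rw [ht']; group

end

/-- with a normal Sylow `2`-subgroup real elements of odd order are trivial. -/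
theorem real_odd_trivial {X : Type u} [Group X] [Finite X] (P : Sylow 2 X) (hP : (P : Subgroup X).Normal)
    {x g : X} (hx : Odd (orderOf x)) (hg : g * x * g⁻¹ = x⁻¹) : x = 1 := by
  classical
  let π := QuotientGroup.mk' (P : Subgroup X)
  have hodd : Odd (Nat.card (X ⧸ (P : Subgroup X))) := by
    have h1 := P.not_dvd_index
    rw [Subgroup.index] at h1
    rw [← Nat.not_even_iff_odd, even_iff_two_dvd]; exact h1
  have h1 : ∀ n : ℕ, π g ^ (2 * n + 1) * π x * (π g ^ (2 * n + 1))⁻¹ = (π x)⁻¹ := by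
    have hg' : π g * π x * (π g)⁻¹ = (π x)⁻¹ := by rw [← map_inv, ← map_inv, ← map_mul, ← map_mul, hg]
    intro n
    induction n with
    | zero => simpa using hg'
    | succ n ih =>
      have e : 2 * (n + 1) + 1 = 2 + (2 * n + 1) := by ring
      calc π g ^ (2 * (n + 1) + 1) * π x * (π g ^ (2 * (n + 1) + 1))⁻¹
          = π g * (π g * (π g ^ (2 * n + 1) * π x * (π g ^ (2 * n + 1))⁻¹) * (π g)⁻¹) * (π g)⁻¹ := by
            rw [e, pow_add, sq]; group
        _ = π g * (π g * (π x)⁻¹ * (π g)⁻¹) * (π g)⁻¹ := by rw [ih]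
        _ = π g * (π g * π x * (π g)⁻¹)⁻¹ * (π g)⁻¹ := by group
        _ = (π x)⁻¹ := by rw [hg', inv_inv]; exact hg'
  obtain ⟨n, hn⟩ := hodd
  have h2 := h1 n
  rw [← hn, pow_card_eq_one'] at h2
  have h3 : π x = (π x)⁻¹ := by simpa using h2
  have h4 : π x ^ 2 = 1 := by rw [sq]; nth_rewrite 2 [h3]; exact mul_inv_cancel _
  have h5 : orderOf (π x) ∣ 1 := by
    have h6 : orderOf (π x) ∣ orderOf x := orderOf_map_dvd π x
    have := Nat.dvd_gcd h6 (orderOf_dvd_of_pow_eq_one h4)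
    rwa [Nat.Coprime.gcd_eq_one (Nat.coprime_two_right.2 hx)] at this
  have h6 : x ∈ (P : Subgroup X) := by
    rw [← QuotientGroup.eq_one_iff]
    exact orderOf_eq_one_iff.1 (Nat.dvd_one.1 h5)
  obtain ⟨k, hk⟩ := P.isPGroup' ⟨x, h6⟩
  have hk' : x ^ 2 ^ k = 1 := congrArg Subtype.val hk
  have h7 : orderOf x ∣ 1 := by
    have := Nat.dvd_gcd (dvd_refl (orderOf x)) (orderOf_dvd_of_pow_eq_one hk')
    rwa [Nat.Coprime.gcd_eq_one (Nat.Coprime.pow_right k (Nat.coprime_two_right.2 hx))] at this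
  exact orderOf_eq_one_iff.1 (Nat.dvd_one.1 h7)

end Cfsg.Agent.Lib.GLAReal
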