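import Cfsg.Agent.Lib.GLAStab
import Cfsg.Agent.Lib.QdCtrl

/-!
Reduction: if `W(S)` does not control strong fusion in `X` then `N_X(W(S))` has the property `R`. (helper65)
-/

set_option autoImplicit false
set_option linter.unusedSectionVars false

namespace Cfsg.Agent.Lib.GLARed

open Cfsg.Agent.Lib.CFSylow Cfsg.Agent.Lib.CFFusion Cfsg.Agent.Lib.CFControl
  Cfsg.Agent.Lib.CFLocal Cfsg.Agent.Lib.CFCore Cfsg.Agent.Lib.CFSection Cfsg.Agent.Lib.CFMin
  Cfsg.Agent.Lib.CFMain Cfsg.Agent.Lib.CFRed Cfsg.Agent.Lib.CFStmt Cfsg.Agent.Lib.GLAStab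

universe u

/-- a property of finite groups that climbs. -/
structure Climb (p : ℕ) (R : ∀ (X : Type u) [Group X], Prop) : Prop where
  mono : Mono R
  quot : ∀ (X Y : Type u) [Group X] [Group Y] [Finite X] [Finite Y] (f : X →* Y), Function.Surjective f → R Y → R X
  fus : ∀ (X : Type u) [Group X] [Finite X] (S V : Subgroup X), SylIn p S ⊤ → S ≤ nz V → SF V ⊤ S → R X → R ↥(nz V)

section
variable {p : ℕ} [Fact p.Prime] {W : ∀ (Q : Type u) [Group Q], Subgroup Q}
  {R : ∀ (X : Type u) [Group X], Prop}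

/-- the statement proved by induction. -/
def PP (p : ℕ) (W : ∀ (Q : Type u) [Group Q], Subgroup Q) (R : ∀ (X : Type u) [Group X], Prop)
    (X : Type u) [Group X] : Prop :=
  ∀ S : Subgroup X, SylIn p S ⊤ → ¬ R ↥(nz (Cfsg.inducedFunctor W S)) → CtrlSF p {W} X

theorem h𝓦 (hW : Cfsg.IsCharPFunctor.{u} p W) : ∀ W' ∈ ({W} : Set (∀ (Q : Type u) [Group Q], Subgroup Q)),
    Cfsg.IsCharPFunctor.{u} p W' := by
  intro W' h; rw [Set.mem_singleton_iff] at h; exact h ▸ hW

variable {X : Type u} [Group X] [Finite X]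

theorem sylIn_sub {H T : Subgroup X} (hT : SylIn p T H) : SylIn p (T.subgroupOf H) ⊤ :=
  SylIn.comap_inj (f := H.subtype) H.subtype_injective (by rwa [Subgroup.range_subtype])

theorem ind_sub (hW : Cfsg.IsCharPFunctor.{u} p W) {H T : Subgroup X} (hT : SylIn p T H) :
    (Cfsg.inducedFunctor W (T.subgroupOf H)).map H.subtype = Cfsg.inducedFunctor W T := by
  rw [← induced_map hW H.subtype (sylIn_sub hT).isPGroup
    (fun x _ hx => H.subtype_injective (by rw [hx, map_one])), Subgroup.map_subgroupOf_eq_of_le hT.le]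

theorem nz_sub_le (hW : Cfsg.IsCharPFunctor.{u} p W) {H T : Subgroup X} (hT : SylIn p T H) :
    (nz (Cfsg.inducedFunctor W (T.subgroupOf H))).map H.subtype ≤ H ⊓ nz (Cfsg.inducedFunctor W T) := by
  refine le_inf (Subgroup.map_subtype_le _) ?_
  have h1 := Subgroup.le_normalizer_map (H := Cfsg.inducedFunctor W (T.subgroupOf H)) H.subtype
  rwa [ind_sub hW hT] at h1

theorem ctrl_of_not (hW : Cfsg.IsCharPFunctor.{u} p W) (hR : Mono R) {H T : Subgroup X} (hT : SylIn p T H)
    (hP : PP p W R ↥H) (hn : ¬ R ↥(H ⊓ nz (Cfsg.inducedFunctor W T))) : CtrlSF p {W} ↥H := by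
  refine hP _ (sylIn_sub hT) ?_
  intro h
  exact hn (hR.of_map H.subtype_injective (nz_sub_le hW hT) h)

theorem sf_of_ctrl {S : Subgroup X} (h : CtrlSF p {W} X) (hS : SylIn p S ⊤) :
    SF (Cfsg.inducedFunctor W S) ⊤ S := by
  have h1 := h _ hS
  rwa [ind_singleton, famSF_singleton] at h1

theorem climb_sub (hW : Cfsg.IsCharPFunctor.{u} p W) (hR : Climb p R) {H T : Subgroup X} (hT : SylIn p T H)
    (hC : CtrlSF p {W} ↥H) (h : R ↥H) : R ↥(H ⊓ nz (Cfsg.inducedFunctor W T)) := by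
  have hS' := sylIn_sub hT
  have h1 := hR.fus ↥H _ _ hS' (le_nz_functor (isConjugacyFunctor_induced hW) hS'.isPGroup) (sf_of_ctrl hC hS') h
  exact hR.mono.of_map H.subtype_injective (nz_sub_le hW hT) h1

/-- the two together -/
theorem both (hW : Cfsg.IsCharPFunctor.{u} p W) (hR : Climb p R) {H T : Subgroup X} (hT : SylIn p T H)
    (hP : PP p W R ↥H) (hn : ¬ R ↥(H ⊓ nz (Cfsg.inducedFunctor W T))) : CtrlSF p {W} ↥H ∧ ¬ R ↥H := by
  have h1 := ctrl_of_not hW hR.mono hT hP hn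
  exact ⟨h1, fun h => hn (climb_sub hW hR hT h1 h)⟩

theorem R_cj (hR : Mono R) (g : X) {K : Subgroup X} : R ↥(cj g K) → R ↥K := by
  intro h
  refine hR.of_map (f := (MulAut.conj g⁻¹).toMonoidHom) (MulAut.conj g⁻¹).injective ?_ h
  rw [show Subgroup.map (MulAut.conj g⁻¹).toMonoidHom (cj g K) = K from cj_inv_cj g K]

theorem nz_ind_cj (hW : Cfsg.IsCharPFunctor.{u} p W) {S : Subgroup X} (hS : IsPGroup p S) (g : X) :
    nz (Cfsg.inducedFunctor W (cj g S)) = cj g (nz (Cfsg.inducedFunctor W S)) := by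
  rw [functor_cj (isConjugacyFunctor_induced hW) hS, cj_nz]

/-- independence of the Sylow subgroup -/
theorem not_R_all (hW : Cfsg.IsCharPFunctor.{u} p W) (hR : Mono R) {S S' : Subgroup X} (hS : SylIn p S ⊤)
    (hS' : SylIn p S' ⊤) (hn : ¬ R ↥(nz (Cfsg.inducedFunctor W S))) :
    ¬ R ↥(nz (Cfsg.inducedFunctor W S')) := by
  obtain ⟨x, -, rfl⟩ := hS.exists_conj_eq hS'
  rw [nz_ind_cj hW hS.isPGroup]
  exact fun h => hn (R_cj hR x h)

/-- **Reduction step.** -/
theorem main_step (hW : Cfsg.IsCharPFunctor.{u} p W) (hR : Climb p R)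
    (IH : ∀ (Y : Type u) [Group Y] [Finite Y], Nat.card Y < Nat.card X → PP p W R Y)
    (hcon : cz (Cfsg.pCore p X) ≤ Cfsg.pCore p X → PP p W R X) : PP p W R X := by
  intro S₀ hS₀ hn₀
  have hn : ∀ S : Subgroup X, SylIn p S ⊤ → ¬ R ↥(nz (Cfsg.inducedFunctor W S)) := fun S hS =>
    not_R_all hW hR.mono hS₀ hS hn₀
  have hc := isConjugacyFunctor_induced (X := X) hW
  by_cases hC : cz (Cfsg.pCore p X) ≤ Cfsg.pCore p X
  · exact hcon hC S₀ hS₀ hn₀
  have hQn : (Cfsg.pCore p X).Normal := pCore_normal p X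
  have hOn : (Cfsg.pPrimeCore p X).Normal := pPrimeCore_normal p X
  -- proper subgroups
  have hprop : ∀ H T : Subgroup X, H ≠ ⊤ → SylIn p T H → ¬ R ↥(H ⊓ nz (Cfsg.inducedFunctor W T)) →
      CtrlSF p {W} ↥H ∧ ¬ R ↥H := fun H T hH hT h => both hW hR hT (IH _ (card_subgroup_lt hH)) h
  by_cases hO : Cfsg.pPrimeCore p X = ⊥
  swap
  · refine sf_of_pPrime_quotient (h𝓦 hW) (pPrimeCore_not_dvd (p := p) (G := X)) ?_
    set N := Cfsg.pPrimeCore p X with hN
    refine IH _ (card_quotient_lt hO) (S₀.map (QuotientGroup.mk' N))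
      (SylIn.map_surj (QuotientGroup.mk'_surjective N) hS₀) ?_
    intro h
    have hNp : ¬ p ∣ Nat.card N := pPrimeCore_not_dvd
    have e : Cfsg.inducedFunctor W (S₀.map (QuotientGroup.mk' N)) =
        (Cfsg.inducedFunctor W S₀).map (QuotientGroup.mk' N) :=
      induced_map hW _ hS₀.isPGroup (fun s hs h' =>
        pgroup_inf_eq_one hNp hS₀.isPGroup ((mem_comap_pi (N := N)).1 h') hs)
    rw [e] at h
    have hVp : IsPGroup p (Cfsg.inducedFunctor W S₀) := hS₀.isPGroup.to_le (functor_le hc hS₀.isPGroup)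
    apply hn₀
    let f : ↥(nz (Cfsg.inducedFunctor W S₀)) →* ↥(nz ((Cfsg.inducedFunctor W S₀).map (QuotientGroup.mk' N))) :=
      ((QuotientGroup.mk' N).comp (Subgroup.subtype _)).codRestrict _
        (fun x => Subgroup.le_normalizer_map _ ⟨x, x.2, rfl⟩)
    refine hR.quot _ _ f ?_ h
    rintro ⟨y, hy⟩
    obtain ⟨m, hm, hmy⟩ := nz_map_le hNp hVp hy
    exact ⟨⟨m, hm⟩, Subtype.ext hmy⟩
  by_cases hQ : Cfsg.pCore p X = ⊥
  · -- local to global
    intro S hS
    rw [ind_singleton, famSF_singleton]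
    refine sf_of_wellPlaced hc hS ?_
    intro T hT hTw
    set D := Cfsg.functorTower (Cfsg.inducedFunctor W) S T with hD
    have hsyl : ∀ i, SylIn p (S ⊓ nz (D i)) (nz (D i)) := wellPlaced_sylIn hS.isPGroup hTw
    have hne : ∀ i, nz (D i) ≠ ⊤ := by
      intro i h
      have h1 := le_pCore (p := p) (nz_eq_top_iff.1 h) (hS.isPGroup.to_le (tower_le hc hS.isPGroup hTw.1 i))
      rw [hQ, le_bot_iff] at h1
      exact tower_ne_bot hc hS.isPGroup hTw.1 hT i h1
    have hdown : ∀ j i, i + j = Nat.card S + 1 → 1 ≤ i → ¬ R ↥(nz (D i)) := by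
      intro j
      induction j with
      | zero =>
        intro i hi _
        have : D i = Cfsg.inducedFunctor W S := by
          have e : i = Nat.card S + 1 := by omega
          rw [e]
          exact tower_eq hc hS.isPGroup T _ le_rfl
        rw [this]
        exact hn S hS
      | succ j ihj =>
        intro i hi hi1
        have h1 := ihj (i + 1) (by omega) (by omega)
        refine (hprop (nz (D i)) _ (hne i) (hsyl i) ?_).2
        intro h
        exact h1 (hR.mono.of_le (inf_le_right : _ ≤ nz (D (i + 1))) h)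
    have h0 : ¬ R ↥(nz (D 0) ⊓ nz (D 1)) := by
      intro h
      exact hdown (Nat.card S) 1 (by omega) le_rfl (hR.mono.of_le inf_le_right h)
    have h1 := (hprop (nz T) (S ⊓ nz T) (hne 0) (hsyl 0) h0).1
    have h2 := famSF_subgroup (h𝓦 hW) h1 (hsyl 0)
    rwa [ind_singleton, famSF_singleton] at h2
  · intro S hS
    have hStop : S ≠ ⊤ := by
      rintro rfl
      apply hC
      have : (⊤ : Subgroup X) ≤ Cfsg.pCore p X := le_pCore inferInstance hS.isPGroup
      exact le_top.trans this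
    have hsubc : ∀ H : Subgroup X, S ≤ H → H ≠ ⊤ → CtrlSF p {W} ↥H ∧ ¬ R ↥H := by
      intro H hSH hH
      refine hprop H S hH (hS.of_le hSH le_top) ?_
      intro h
      exact hn S hS (hR.mono.of_le inf_le_right h)
    have hsub : ∀ H : Subgroup X, S ≤ H → H ≠ ⊤ → ∀ B : Subgroup X, B ≤ S → ∀ h ∈ H,
        cj h B ≤ S → Reach (mem (ind {W} X) ⊤ S) S B h := by
      intro H hSH hH B hB h hh hle
      exact reach_of_subgroup (h𝓦 hW) (hsubc H hSH hH).1 (hS.of_le hSH le_top) hB hh hle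
    have hΦ := isFus_reach (mem (ind {W} X) ⊤ S) S
    have hcent : ∀ B : Subgroup X, B ≤ S → ∀ g ∈ cz B, Reach (mem (ind {W} X) ⊤ S) S B g :=
      fun B hB g hg => .one hB hg
    intro B hB g _ hg
    refine skeleton hS hO hC hΦ hsub ?_ B hB g hg
    intro hCS B hBS hQB hBn g hg
    have hgB : cj g B ≤ S := by rw [mem_normalizer.1 hg]; exact hBS
    by_cases hSQ : S = Cfsg.pCore p X
    · have hB : B = S := le_antisymm hBS (hSQ ▸ hQB)
      subst hB
      have h1 : g ∈ B ⊔ cz B := by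
        rw [← hSQ] at hCS
        rw [sup_comm, hCS]; exact Subgroup.mem_top g
      have h2 := fus_closure hΦ (hcent B le_rfl 1 (one_mem _)) (E := cz B)
        (fun e he => ⟨centralizer_le_normalizer B he, hcent B le_rfl e he⟩)
        (M := B) (fun e he => ⟨Subgroup.le_normalizer he, hsub B le_rfl hStop B le_rfl e he
          (by rw [mem_normalizer.1 (Subgroup.le_normalizer he)])⟩) g h1
      exact h2.2
    · refine caseB_sf (h𝓦 hW) hS hSQ hCS ?_ hΦ hcent hStop hsub hBS hQB hBn hgB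
      have hpi : Function.Surjective (QuotientGroup.mk' (Cfsg.pCore p X)) := QuotientGroup.mk'_surjective _
      refine IH _ (card_quotient_lt hQ) _ (SylIn.map_surj hpi hS) ?_
      intro h
      obtain ⟨e, hSV, hneV⟩ := preimage_props (h𝓦 hW) hS hSQ (Set.mem_singleton W)
      refine (hsubc _ hSV hneV).2 ?_
      rw [e]
      let f : ↥((nz (Cfsg.inducedFunctor W (S.map (QuotientGroup.mk' (Cfsg.pCore p X))))).comap
          (QuotientGroup.mk' (Cfsg.pCore p X))) →*
          ↥(nz (Cfsg.inducedFunctor W (S.map (QuotientGroup.mk' (Cfsg.pCore p X))))) :=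
        ((QuotientGroup.mk' (Cfsg.pCore p X)).comp (Subgroup.subtype _)).codRestrict _ (fun x => x.2)
      refine hR.quot _ _ f ?_ h
      rintro ⟨y, hy⟩
      obtain ⟨m, rfl⟩ := hpi y
      exact ⟨⟨m, hy⟩, rfl⟩

end

end Cfsg.Agent.Lib.GLARed
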