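import Cfsg.Agent.Lib.GLAPair

/-!
The stabilizer argument: a quadratically acting `p`-group `A ≰ Dcore p C(B)` lies in a `p`-subgroup `U` whose
normalizer has a given property `R`. (helper65)
-/

set_option autoImplicit false
set_option linter.unusedSectionVars false

namespace Cfsg.Agent.Lib.GLAStab

open Subgroup Cfsg.Agent.Lib.QuadSection Cfsg.Agent.Lib.PStab Cfsg.Agent.Lib.PStabPair
  Cfsg.Agent.Lib.CFSylow
open scoped commutatorElement Pointwise

universe u

/-- the key step -/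
def Key (p : ℕ) [Fact p.Prime] (R : ∀ (X : Type u) [Group X], Prop) : Prop :=
  ∀ (X : Type u) [Group X] [Finite X] (B A : Subgroup X) [B.Normal], IsPGroup p B → IsPGroup p A →
    ⁅⁅B, A⁆, A⁆ = ⊥ → ¬ A ≤ Dcore p (centralizer (B : Set X)) →
    ∃ Y : Subgroup X, Y ≠ ⊤ ∧ A ≤ Y ∧ B ≤ Y ∧
      ∀ K : Subgroup X, B ≤ K → (∀ y ∈ Y, ∃ c ∈ centralizer (B : Set X), ∃ k ∈ K, y = c * k) → R ↥K

def Mono (R : ∀ (X : Type u) [Group X], Prop) : Prop :=
  ∀ (X Y : Type u) [Group X] [Group Y] [Finite X] [Finite Y] (f : X →* Y), Function.Injective f → R X → R Y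

theorem Mono.of_le {R : ∀ (X : Type u) [Group X], Prop} (hR : Mono R) {X : Type u} [Group X] [Finite X]
    {H K : Subgroup X} (h : H ≤ K) (hH : R ↥H) : R ↥K :=
  hR _ _ (Subgroup.inclusion h) (Subgroup.inclusion_injective h) hH

theorem Mono.of_map {R : ∀ (X : Type u) [Group X], Prop} (hR : Mono R) {X Y : Type u} [Group X] [Finite X]
    [Group Y] [Finite Y] {f : X →* Y} (hf : Function.Injective f) {H : Subgroup X} {K : Subgroup Y}
    (h : H.map f ≤ K) (hH : R ↥H) : R ↥K := by
  refine hR _ _ ((f.comp H.subtype).codRestrict K (fun x => h ⟨x, x.2, rfl⟩)) ?_ hH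
  intro a b hab
  have h1 : f a = f b := congrArg Subtype.val hab
  exact Subtype.ext (hf h1)

/-- the stabilizer induction. -/
theorem exists_U {p : ℕ} [hp : Fact p.Prime] {R : ∀ (X : Type u) [Group X], Prop} (hR : Mono R)
    (hkey : Key p R) : ∀ (n : ℕ) (X : Type u) [Group X] [Finite X], Nat.card X ≤ n →
    ∀ (B A : Subgroup X) [B.Normal], IsPGroup p B → IsPGroup p A →
    ⁅⁅B, A⁆, A⁆ = ⊥ → ¬ A ≤ Dcore p (centralizer (B : Set X)) →
    ∃ U : Subgroup X, IsPGroup p U ∧ A ≤ U ∧ R ↥(normalizer (U : Set X)) := by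
  intro n
  induction n with
  | zero => intro X _ _ hn; exact absurd hn (not_le.2 Nat.card_pos)
  | succ n ih =>
    intro X _ _ hn B A _ hB hA hBAA hnot
    obtain ⟨Y, hYt, hAY, hBY, hK⟩ := hkey X B A hB hA hBAA hnot
    have hinj := Y.subtype_injective
    have hcard : Nat.card Y ≤ n := by
      have := CFRed.card_subgroup_lt hYt
      omega
    have hB'n : (B.subgroupOf Y).Normal := inferInstance
    have hB' : IsPGroup p (B.subgroupOf Y) := hB.comap_of_injective Y.subtype hinj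
    have hA' : IsPGroup p (A.subgroupOf Y) := hA.comap_of_injective Y.subtype hinj
    have hmB : (B.subgroupOf Y).map Y.subtype = B := map_subgroupOf_eq_of_le hBY
    have hmA : (A.subgroupOf Y).map Y.subtype = A := map_subgroupOf_eq_of_le hAY
    have hBAA' : ⁅⁅B.subgroupOf Y, A.subgroupOf Y⁆, A.subgroupOf Y⁆ = ⊥ := by
      apply Subgroup.map_injective hinj
      rw [map_commutator, map_commutator, hmB, hmA, hBAA, Subgroup.map_bot]
    by_cases hD : A.subgroupOf Y ≤ Dcore p (centralizer (B.subgroupOf Y : Set Y))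
    · obtain ⟨S, hS, hAS⟩ := exists_sylIn_ge (p := p) hA' (le_top : A.subgroupOf Y ≤ ⊤)
      have hS' : RelSylow.IsSyl p S ⊤ := hS
      set U' := S ⊓ Dcore p (centralizer (B.subgroupOf Y : Set Y)) with hU'
      have hBU : B.subgroupOf Y ≤ U' := by
        refine le_inf ?_ ?_
        · obtain ⟨Q, hQ⟩ := sylIn_top_iff.1 hS
          rw [← hQ]
          exact hB'.le_sylow_of_normal Q
        · exact le_Dcore_of_isPGroup hB'n (hB'.map _)
      have hU'p : IsPGroup p U' := hS.isPGroup.to_le inf_le_left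
      refine ⟨U'.map Y.subtype, hU'p.map _, ?_, ?_⟩
      · rw [← hmA]; exact Subgroup.map_mono (le_inf hAS hD)
      · refine hR.of_le (H := (normalizer (U' : Set Y)).map Y.subtype) (le_normalizer_map _) ?_
        apply hK
        · rw [← hmB]; exact Subgroup.map_mono (hBU.trans le_normalizer)
        · intro y hy
          obtain ⟨c, hc, l, hl, e⟩ := Dcore_frattini (centralizer (B.subgroupOf Y : Set Y)) hS' (⟨y, hy⟩ : Y)
          refine ⟨c, ?_, l, ⟨l, hl, rfl⟩, congrArg Subtype.val e⟩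
          rw [mem_centralizer_iff] at hc ⊢
          intro b hb
          have h1 := hc ⟨b, hBY hb⟩ hb
          exact congrArg Subtype.val h1
    · obtain ⟨U, hU, hAU, hRU⟩ := ih ↥Y hcard (B.subgroupOf Y) (A.subgroupOf Y) hB' hA' hBAA' hD
      refine ⟨U.map Y.subtype, hU.map _, ?_, ?_⟩
      · rw [← hmA]; exact Subgroup.map_mono hAU
      · exact hR.of_map hinj (le_normalizer_map _) hRU

section realcase
variable {p : ℕ} [hp : Fact p.Prime]

/-- a `p`-subgroup with an element of the normalizer inducing an automorphism of even order. -/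
def REl (p : ℕ) (X : Type u) [Group X] : Prop :=
  ∃ Q : Subgroup X, IsPGroup p Q ∧ ∃ g ∈ normalizer (Q : Set X), ∀ m : ℕ, Odd m → g ^ m ∉ centralizer (Q : Set X)

theorem rel_of_sub {X : Type u} [Group X] {K Q : Subgroup X} (hQK : Q ≤ K) (hQ : IsPGroup p Q) {g : X}
    (hgK : g ∈ K) (hg : g ∈ normalizer (Q : Set X)) (hm : ∀ m : ℕ, Odd m → g ^ m ∉ centralizer (Q : Set X)) :
    REl p ↥K := by
  refine ⟨Q.subgroupOf K, hQ.comap_of_injective K.subtype K.subtype_injective, ⟨g, hgK⟩, ?_, ?_⟩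
  · rw [Subgroup.mem_normalizer_iff] at hg ⊢
    intro x
    exact hg x
  · intro m hmo hc
    apply hm m hmo
    rw [mem_centralizer_iff] at hc ⊢
    intro q hq
    exact congrArg Subtype.val (hc ⟨q, hQK hq⟩ hq)

theorem rel_mono : Mono (REl.{u} p) := by
  rintro X Y _ _ _ _ f hf ⟨Q, hQ, g, hg, hm⟩
  refine ⟨Q.map f, hQ.map f, f g, ?_, ?_⟩
  · exact le_normalizer_map f ⟨g, hg, rfl⟩
  · intro m hmo hc
    apply hm m hmo
    rw [mem_centralizer_iff] at hc ⊢
    intro q hq
    apply hf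
    rw [map_mul, map_mul, map_pow]
    exact hc (f q) ⟨q, hq, rfl⟩

/-- a normal `p`-subgroup acts trivially on an irreducible module. -/
theorem trivial_of_normal {X : Type u} [Group X] [Finite X] {W : Type u} [AddCommGroup W] [Module (ZMod p) W]
    [Finite W] [Nontrivial W] (ρ : X →* Module.End (ZMod p) W)
    (hirr : ∀ U : Submodule (ZMod p) W, (∀ g : X, ∀ w ∈ U, ρ g w ∈ U) → U = ⊥ ∨ U = ⊤)
    {B : Subgroup X} (hBn : B.Normal) (hB : IsPGroup p B) : ∀ b ∈ B, ρ b = 1 := by
  classical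
  let U : Submodule (ZMod p) W :=
    { carrier := {w | ∀ b ∈ B, ρ b w = w}
      zero_mem' := fun b _ => map_zero _
      add_mem' := fun {v w} hv hw b hb => by rw [map_add, hv b hb, hw b hb]
      smul_mem' := fun c w hw b hb => by rw [map_smul, hw b hb] }
  have hU : ∀ g : X, ∀ w ∈ U, ρ g w ∈ U := by
    intro g w hw b hb
    have h1 : ρ b (ρ g w) = ρ g (ρ (g⁻¹ * b * g) w) := by
      rw [← Module.End.mul_apply, ← map_mul, ← Module.End.mul_apply, ← map_mul]
      congr 2; group
    rw [h1, hw (g⁻¹ * b * g) (by simpa using hBn.conj_mem b hb g⁻¹)]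
  have hne : U ≠ ⊥ := by
    let _ : MulAction B W :=
      { smul := fun b w => ρ b w
        one_smul := fun w => by show ρ ((1 : B) : X) w = w; rw [Subgroup.coe_one, map_one]; rfl
        mul_smul := fun a b w => by
          show ρ ((a * b : B) : X) w = ρ a (ρ b w)
          rw [Subgroup.coe_mul, map_mul]; rfl }
    have hcard : p ∣ Nat.card W := by
      have h1 : 1 < Nat.card W := Finite.one_lt_card
      have h2 := Module.natCard_eq_pow_finrank (K := ZMod p) (V := W)
      rw [Nat.card_zmod] at h2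
      rw [h2]
      rcases Nat.eq_zero_or_pos (Module.finrank (ZMod p) W) with h | h
      · rw [h2, h, pow_zero] at h1; exact absurd h1 (lt_irrefl _)
      · exact dvd_pow_self p h.ne'
    obtain ⟨w, hw, hw0⟩ := hB.exists_fixed_point_of_prime_dvd_card_of_fixed_point W hcard
      (a := (0 : W)) (fun b => map_zero (ρ (b : X)))
    intro h
    apply hw0
    have h1 : w ∈ U := fun b hb => hw ⟨b, hb⟩
    rw [h, Submodule.mem_bot] at h1
    exact h1.symm
  rcases hirr U hU with h | h
  · exact absurd h hne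
  · intro b hb
    apply LinearMap.ext
    intro w
    have : w ∈ U := by rw [h]; trivial
    exact this b hb

/-- the stabilizer of a submodule. -/
def stab {X : Type u} [Group X] {W : Type u} [AddCommGroup W] [Module (ZMod p) W]
    (ρ : X →* Module.End (ZMod p) W) (U : Submodule (ZMod p) W) : Subgroup X where
  carrier := {g | ∀ w, w ∈ U ↔ ρ g w ∈ U}
  one_mem' := fun w => by rw [map_one]; rfl
  mul_mem' := fun {a b} ha hb w => by
    rw [map_mul]
    show w ∈ U ↔ ρ a (ρ b w) ∈ U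
    rw [← ha, ← hb]
  inv_mem' := fun {a} ha w => by
    rw [ha (ρ a⁻¹ w), ← Module.End.mul_apply, ← map_mul, mul_inv_cancel, map_one]; rfl

theorem mem_stab {X : Type u} [Group X] {W : Type u} [AddCommGroup W] [Module (ZMod p) W]
    {ρ : X →* Module.End (ZMod p) W} {U : Submodule (ZMod p) W} {g : X} :
    g ∈ stab ρ U ↔ ∀ w, w ∈ U ↔ ρ g w ∈ U := Iff.rfl

/-- an element acting trivially on `U` stabilizes it. -/
theorem mem_stab_of_trivial {X : Type u} [Group X] {W : Type u} [AddCommGroup W] [Module (ZMod p) W]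
    {ρ : X →* Module.End (ZMod p) W} {U : Submodule (ZMod p) W} {g : X} (h : ∀ w ∈ U, ρ g w = w) :
    g ∈ stab ρ U := by
  rw [mem_stab]
  intro w
  constructor
  · intro hw; rw [h w hw]; exact hw
  · intro hw
    have h1 := h _ hw
    have hid : ∀ v, ρ g⁻¹ (ρ g v) = v := by
      intro v
      rw [← Module.End.mul_apply, ← map_mul, inv_mul_cancel, map_one]; rfl
    have h3 : ρ g w = w := by
      rw [← hid (ρ g w), h1, hid]
    rwa [h3] at hw

/-- quadratic action on the chief factor -/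
theorem quad_rep {X : Type u} [Group X] {B A V : Subgroup X} {hV : V.Normal} {W : Type u} [AddCommGroup W]
    [Module (ZMod p) W] {π : V →* Multiplicative W} {ρ : X →* Module.End (ZMod p) W} (hVB : V ≤ B)
    (hπ : Function.Surjective π)
    (hρ : ∀ (g : X) (v : V), ρ g (Multiplicative.toAdd (π v)) =
        Multiplicative.toAdd (π ⟨g * v * g⁻¹, hV.conj_mem v v.2 g⟩))
    (hBAA : ⁅⁅B, A⁆, A⁆ = ⊥) {a b : X} (ha : a ∈ A) (hb : b ∈ A) : (ρ a - 1) * (ρ b - 1) = 0 := by
  apply LinearMap.ext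
  intro w
  obtain ⟨v, hv⟩ := hπ (Multiplicative.ofAdd w)
  have hw : w = Multiplicative.toAdd (π v) := by rw [hv]; rfl
  subst hw
  -- the element `b v b⁻¹ v⁻¹`
  set v1 : V := ⟨b * v * b⁻¹, hV.conj_mem v v.2 b⟩ * v⁻¹ with hv1
  have e1 : (ρ b - 1) (Multiplicative.toAdd (π v)) = Multiplicative.toAdd (π v1) := by
    rw [hv1, map_mul, map_inv, LinearMap.sub_apply, hρ, Module.End.one_apply, sub_eq_add_neg]
    rfl
  have hfix : a * (v1 : X) * a⁻¹ = v1 := by
    have h1 : (v1 : X) ∈ ⁅B, A⁆ := by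
      have e : (v1 : X) = ⁅b, (v : X)⁆ := by
        rw [hv1, commutatorElement_def]; rfl
      rw [e, commutator_comm]
      exact commutator_mem_commutator hb (hVB v.2)
    have h2 : ⁅(v1 : X), a⁆ ∈ ⁅⁅B, A⁆, A⁆ := commutator_mem_commutator h1 ha
    rw [hBAA, Subgroup.mem_bot, commutatorElement_eq_one_iff_mul_comm] at h2
    rw [← h2]; group
  rw [Module.End.mul_apply, e1, LinearMap.sub_apply, hρ]
  have e2 : (⟨a * (v1 : X) * a⁻¹, hV.conj_mem v1 v1.2 a⟩ : V) = v1 := Subtype.ext hfix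
  rw [e2]
  show Multiplicative.toAdd (π v1) - Multiplicative.toAdd (π v1) = 0
  exact sub_self _

theorem quad_conj' {X : Type u} [Group X] {W : Type u} [AddCommGroup W] [Module (ZMod p) W]
    {ρ : X →* Module.End (ZMod p) W} {x : X} (hx : (ρ x - 1) * (ρ x - 1) = 0) (g : X) :
    (ρ (g * x * g⁻¹) - 1) * (ρ (g * x * g⁻¹) - 1) = 0 := by
  have e : ρ (g * x * g⁻¹) - 1 = ρ g * (ρ x - 1) * ρ g⁻¹ := by
    have h1 : ρ g * ρ g⁻¹ = 1 := by rw [← map_mul, mul_inv_cancel, map_one]
    calc ρ (g * x * g⁻¹) - 1 = ρ g * ρ x * ρ g⁻¹ - ρ g * ρ g⁻¹ := by rw [map_mul, map_mul, h1]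
      _ = _ := by noncomm_ring
  have h2 : ρ g⁻¹ * ρ g = 1 := by rw [← map_mul, inv_mul_cancel, map_one]
  rw [e]
  calc ρ g * (ρ x - 1) * ρ g⁻¹ * (ρ g * (ρ x - 1) * ρ g⁻¹)
      = ρ g * (ρ x - 1) * (ρ g⁻¹ * ρ g) * (ρ x - 1) * ρ g⁻¹ := by noncomm_ring
    _ = ρ g * ((ρ x - 1) * (ρ x - 1)) * ρ g⁻¹ := by rw [h2]; noncomm_ring
    _ = 0 := by rw [hx]; simp

/-- **The key step, real case.** -/
theorem rel_key (hp2 : p ≠ 2) : Key p (REl.{u} p) := by
  intro X _ _ B A hBn hB hA hBAA hnot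
  obtain ⟨x, hxA, hx⟩ := SetLike.not_le_iff_exists.1 hnot
  obtain ⟨g, h, hh, hcop, hne⟩ := GLAPair.exists_pair (p := p) hx
  obtain ⟨V, hV, W, _, _, _, π, ρ, hVB, hπ, hρ, hW, hirr, hρh⟩ := GLAPair.exists_chief hB hcop hne
  have hq : ∀ a ∈ A, ∀ b ∈ A, (ρ a - 1) * (ρ b - 1) = 0 := fun a ha b hb =>
    quad_rep (hV := hV) hVB hπ hρ hBAA ha hb
  have hxx := hq x hxA x hxA
  obtain ⟨t, -, htt, ht1, htx⟩ := GLAMod.exists_involution hp2 ρ hxx (quad_conj' hxx g) ⟨h, hh, hρh⟩
  set U := LinearMap.range (ρ x - 1) with hU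
  have htriv := trivial_of_normal ρ hirr hBn hB
  have hρx : ρ x ≠ 1 := by
    intro e
    apply hρh 0
    have h1 : ∀ s ∈ closure {x, g * x * g⁻¹}, ρ s = 1 := by
      intro s hs
      have h2 : closure {x, g * x * g⁻¹} ≤ ρ.ker := by
        rw [closure_le]
        intro y hy
        rcases hy with rfl | hy
        · exact e
        · rw [Set.mem_singleton_iff.1 hy]
          show ρ (g * x * g⁻¹) = 1
          rw [map_mul, map_mul, e, mul_one, ← map_mul, mul_inv_cancel, map_one]
      exact h2 hs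
    rw [h1 h hh, one_pow]
  refine ⟨stab ρ U, ?_, ?_, ?_, ?_⟩
  · intro htop
    have hinv : ∀ g : X, ∀ w ∈ U, ρ g w ∈ U := by
      intro g w hw
      have : g ∈ stab ρ U := by rw [htop]; exact mem_top g
      exact (this w).1 hw
    rcases hirr U hinv with h0 | h0
    · rw [hU, LinearMap.range_eq_bot] at h0
      exact hρx (sub_eq_zero.1 h0)
    · apply hρx
      rw [← sub_eq_zero]
      apply LinearMap.ext
      intro w
      have hw : w ∈ U := by rw [h0]; trivial
      obtain ⟨v, rfl⟩ := hw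
      rw [← Module.End.mul_apply, hxx]; rfl
  · intro a ha
    apply mem_stab_of_trivial
    rintro _ ⟨w, rfl⟩
    have := congrArg (fun f : Module.End (ZMod p) W => f w) (hq a ha x hxA)
    have h2 : ρ a ((ρ x - 1) w) - (ρ x - 1) w = 0 := this
    exact sub_eq_zero.1 h2
  · intro b hb
    apply mem_stab_of_trivial
    intro w _
    rw [htriv b hb]; rfl
  · intro K hBK hK
    have htY : t ∈ stab ρ U := by
      have hle : ∀ w ∈ U, ρ t w ∈ U := by
        rintro _ ⟨w, rfl⟩
        refine ⟨ρ t w, ?_⟩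
        have h1 : (ρ x - 1) * ρ t = ρ t * (ρ x - 1) := by
          rw [sub_mul, mul_sub, htx]; simp
        have := congrArg (fun f : Module.End (ZMod p) W => f w) h1
        exact this
      rw [mem_stab]
      intro w
      refine ⟨hle w, fun hw => ?_⟩
      have h1 := hle _ hw
      rw [← Module.End.mul_apply, htt] at h1
      exact h1
    obtain ⟨c, hc, k, hk, e⟩ := hK t htY
    have hρc : ∀ c ∈ centralizer (B : Set X), ρ c = 1 := by
      intro c hc
      apply LinearMap.ext
      intro w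
      obtain ⟨v, hv⟩ := hπ (Multiplicative.ofAdd w)
      have hw : w = Multiplicative.toAdd (π v) := by rw [hv]; rfl
      subst hw
      rw [hρ]
      have : (⟨c * v * c⁻¹, hV.conj_mem v v.2 c⟩ : V) = v := by
        apply Subtype.ext
        show c * (v : X) * c⁻¹ = v
        rw [mem_centralizer_iff] at hc
        rw [← hc v (hVB v.2)]; group
      rw [this]; rfl
    have hρk : ρ k = ρ t := by rw [e, map_mul, hρc c hc, one_mul]
    refine rel_of_sub hBK hB hk (by rw [Subgroup.normalizer_eq_top]; exact mem_top k) ?_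
    intro m hm hkm
    have h1 := hρc _ hkm
    rw [map_pow, hρk] at h1
    obtain ⟨j, rfl⟩ := hm
    rw [pow_succ, pow_mul, sq, htt, one_pow, one_mul] at h1
    exact ht1 h1

end realcase

end Cfsg.Agent.Lib.GLAStab
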