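import Cfsg.Agent.Lib.FXType
import Cfsg.Agent.Lib.LinAux

set_option autoImplicit false
set_option linter.unusedSectionVars false

/-! Conjugacy classes of `GL_n(F)` and types (helper43). -/

namespace Cfsg.Agent.Lib.GLClass

open Module Polynomial Cfsg.Agent.Lib.FXType Cfsg.Agent.Lib.LinAux

universe u v

variable {F : Type u} [Field F] {ι : Type v} [Fintype ι] [DecidableEq ι]

/-- the type of a matrix -/
def MType (A : Matrix ι ι F) (s : Multiset (F[X] × ℕ)) : Prop := HasType (Matrix.mulVecLin A) s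

theorem exists_mtype (A : Matrix ι ι F) : ∃ s, MType A s := exists_hasType _

theorem MType.unique {A : Matrix ι ι F} {s t : Multiset (F[X] × ℕ)} (h : MType A s) (h' : MType A t) : s = t :=
  HasType.unique h h'

theorem MType.isConj {A B : Matrix ι ι F} {s : Multiset (F[X] × ℕ)} (h : MType A s)
    (h' : MType B s) : IsConj A B := by
  obtain ⟨e, he⟩ := HasType.equiv h h'
  refine ⟨(glEquiv ι F).symm e, ?_⟩
  show (((glEquiv ι F).symm e : GL ι F) : Matrix ι ι F) * A = B * (((glEquiv ι F).symm e : GL ι F) : Matrix ι ι F)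
  apply matrix_ext
  intro x
  rw [← Matrix.mulVec_mulVec, ← Matrix.mulVec_mulVec, glEquiv_symm_mulVec, glEquiv_symm_mulVec]
  exact he x

theorem MType.of_isConj {A B : Matrix ι ι F} {s : Multiset (F[X] × ℕ)} (h : MType A s) (hAB : IsConj A B) : MType B s := by
  obtain ⟨c, hc⟩ := hAB
  have hc' : (c : Matrix ι ι F) * A = B * c := hc
  refine HasType.ofEquiv h (glEquiv ι F c⁻¹) ?_
  intro x
  rw [glEquiv_apply, glEquiv_apply, Matrix.mulVecLin_apply, Matrix.mulVecLin_apply, Matrix.mulVec_mulVec, Matrix.mulVec_mulVec]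
  congr 1
  calc (↑c⁻¹ : Matrix ι ι F) * B = ↑c⁻¹ * (B * (c * ↑c⁻¹)) := by rw [Units.mul_inv, Matrix.mul_one]
    _ = ↑c⁻¹ * (B * c) * ↑c⁻¹ := by simp only [Matrix.mul_assoc]
    _ = A * ↑c⁻¹ := by rw [← hc', ← Matrix.mul_assoc, Units.inv_mul, Matrix.one_mul]

theorem isConj_iff_coe (g h : GL ι F) : IsConj g h ↔ IsConj (g : Matrix ι ι F) (h : Matrix ι ι F) := by
  constructor
  · intro hgh
    obtain ⟨c, hc⟩ := isConj_iff.mp hgh
    refine ⟨c, ?_⟩
    show (c : Matrix ι ι F) * g = h * c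
    rw [← Units.val_mul, ← Units.val_mul, ← hc, inv_mul_cancel_right]
  · rintro ⟨c, hc⟩
    rw [isConj_iff]
    refine ⟨c, ?_⟩
    have hc' : (c : Matrix ι ι F) * g = h * c := hc
    rw [mul_inv_eq_iff_eq_mul]
    exact Units.ext hc'

theorem aeval_mulVecLin (A : Matrix ι ι F) (g : F[X]) : aeval (Matrix.mulVecLin A) g = Matrix.mulVecLin (aeval A g) := by
  have := (Polynomial.aeval_algHom_apply (Matrix.toLinAlgEquiv' (R := F) (n := ι)).toAlgHom A g)
  exact this

theorem mulVecLin_eq_zero_iff (A : Matrix ι ι F) : Matrix.mulVecLin A = 0 ↔ A = 0 := by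
  constructor
  · intro h
    apply matrix_ext
    intro x
    rw [Matrix.zero_mulVec]
    exact LinearMap.congr_fun h x
  · rintro rfl
    exact Matrix.mulVecLin_zero

theorem MType.aeval_eq_zero_iff {A : Matrix ι ι F} {s : Multiset (F[X] × ℕ)} (h : MType A s) (g : F[X]) :
    aeval A g = 0 ↔ ∀ d ∈ s, d.1 ^ d.2 ∣ g := by
  rw [← mulVecLin_eq_zero_iff, ← aeval_mulVecLin]
  exact HasType.aeval_eq_zero_iff h g

theorem MType.isUnit_iff {A : Matrix ι ι F} {s : Multiset (F[X] × ℕ)} (h : MType A s) : IsUnit A ↔ ∀ d ∈ s, d.1 ≠ X := by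
  classical
  have h1 := HasType.finrank_ker h (X ^ 1)
  rw [pow_one, aeval_X] at h1
  have h2 : IsUnit A ↔ finrank F (LinearMap.ker (Matrix.mulVecLin A)) = 0 := by
    rw [Submodule.finrank_eq_zero, LinearMap.ker_eq_bot', Matrix.isUnit_iff_isUnit_det, isUnit_iff_ne_zero,
      ← not_iff_not, not_not, ← Matrix.exists_mulVec_eq_zero_iff]
    push Not
    constructor
    · rintro ⟨v, hv, hv0⟩; exact ⟨v, hv0, hv⟩
    · rintro ⟨v, hv0, hv⟩; exact ⟨v, hv, hv0⟩
  rw [h2, h1, Multiset.sum_eq_zero_iff]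
  constructor
  · intro h3 d hd hX
    have h4 := h3 _ (Multiset.mem_map_of_mem _ hd)
    have hg := h.good d hd
    rw [← pow_one X, natDegree_gcd_pow d.1 X hg.1 hg.2.1 monic_X irreducible_X, if_pos hX, hX, natDegree_X, one_mul] at h4
    have := hg.2.2
    omega
  · intro h3 x hx
    rw [Multiset.mem_map] at hx
    obtain ⟨d, hd, rfl⟩ := hx
    have hg := h.good d hd
    rw [← pow_one X, natDegree_gcd_pow d.1 X hg.1 hg.2.1 monic_X irreducible_X, if_neg (h3 d hd)]

theorem MType.card {A : Matrix ι ι F} {s : Multiset (F[X] × ℕ)} (h : MType A s) :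
    (s.map fun d => d.1.natDegree * d.2).sum = Fintype.card ι := by
  rw [← HasType.finrank h, Module.finrank_fintype_fun_eq_card]

theorem exists_matrix (n : ℕ) (s : Multiset (F[X] × ℕ)) (hs : ∀ d ∈ s, Good d) (hn : (s.map fun d => d.1.natDegree * d.2).sum = n) :
    ∃ A : Matrix (Fin n) (Fin n) F, MType A s := by
  obtain ⟨f, hf⟩ := exists_of_type s hs n hn
  refine ⟨LinearMap.toMatrix' f, ?_⟩
  show HasType (Matrix.mulVecLin (LinearMap.toMatrix' f)) s
  rwa [← Matrix.toLin'_apply', Matrix.toLin'_toMatrix']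

/-- Counting classes of `GL_n(F)` with a property that can be read off the type. -/
theorem card_classes (n : ℕ) (P : GL (Fin n) F → Prop) (T : Multiset (F[X] × ℕ) → Prop)
    (hPT : ∀ (g : GL (Fin n) F) (s : Multiset (F[X] × ℕ)), MType (g : Matrix (Fin n) (Fin n) F) s → (P g ↔ T s)) :
    Nat.card {C : ConjClasses (GL (Fin n) F) // ∃ g : GL (Fin n) F, ConjClasses.mk g = C ∧ P g} =
      Nat.card {s : Multiset (F[X] × ℕ) // ((∀ d ∈ s, Good d ∧ d.1 ≠ X) ∧ (s.map fun d => d.1.natDegree * d.2).sum = n) ∧ T s} := by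
  classical
  choose typ htyp using fun g : GL (Fin n) F => exists_mtype (g : Matrix (Fin n) (Fin n) F)
  have hiff : ∀ g h, IsConj g h ↔ typ g = typ h := by
    intro g h
    rw [isConj_iff_coe]
    constructor
    · intro h1
      exact ((htyp g).of_isConj h1).unique (htyp h)
    · intro h1
      have h2 := htyp h
      rw [← h1] at h2
      exact (htyp g).isConj h2
  let Φ : {C : ConjClasses (GL (Fin n) F) // ∃ g : GL (Fin n) F, ConjClasses.mk g = C ∧ P g} →
      {s : Multiset (F[X] × ℕ) // ((∀ d ∈ s, Good d ∧ d.1 ≠ X) ∧ (s.map fun d => d.1.natDegree * d.2).sum = n) ∧ T s} :=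
    fun C => ⟨typ C.2.choose, ⟨fun d hd => ⟨(htyp _).good d hd, (htyp _).isUnit_iff.mp (C.2.choose).isUnit d hd⟩, by
      rw [(htyp _).card, Fintype.card_fin]⟩, (hPT _ _ (htyp _)).mp C.2.choose_spec.2⟩
  apply Nat.card_congr
  apply Equiv.ofBijective Φ
  constructor
  · intro C D hCD
    have h1 : typ C.2.choose = typ D.2.choose := congrArg Subtype.val hCD
    rw [← hiff] at h1
    apply Subtype.ext
    rw [← C.2.choose_spec.1, ← D.2.choose_spec.1, ConjClasses.mk_eq_mk_iff_isConj]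
    exact h1
  · rintro ⟨s, ⟨hs, hn⟩, hT⟩
    obtain ⟨A, hA⟩ := exists_matrix n s (fun d hd => (hs d hd).1) hn
    have hu : IsUnit A := hA.isUnit_iff.mpr fun d hd => (hs d hd).2
    obtain ⟨g, rfl⟩ := hu
    refine ⟨⟨ConjClasses.mk g, g, rfl, (hPT _ _ hA).mpr hT⟩, ?_⟩
    apply Subtype.ext
    set C : {C : ConjClasses (GL (Fin n) F) // ∃ g : GL (Fin n) F, ConjClasses.mk g = C ∧ P g} :=
      ⟨ConjClasses.mk g, g, rfl, (hPT _ _ hA).mpr hT⟩ with hC
    show typ C.2.choose = s
    have h1 := C.2.choose_spec.1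
    have h2 : IsConj C.2.choose g := ConjClasses.mk_eq_mk_iff_isConj.mp h1
    rw [hiff] at h2
    rw [h2]
    exact (htyp g).unique hA

end Cfsg.Agent.Lib.GLClass
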