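import Cfsg.Agent.Lib.GLClass

/-! Counting types of matrices (helper41): `TA A n` = types of total degree `n` without the factor `X` and with
exponents in `A`. -/

set_option autoImplicit false

namespace Cfsg.Agent.Lib.GLCount

open Polynomial Cfsg.Agent.Lib.FXType Cfsg.Agent.Lib.GLClass UniqueFactorizationMonoid Classical

universe u

variable {F : Type u} [Field F]

/-! ### Counting monic polynomials -/

/-- monic polynomials of degree `m` -/
def MS (F : Type u) [Field F] (m : ℕ) : Set F[X] := {g | g.Monic ∧ g.natDegree = m}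

/-- monic polynomials of degree `m` with nonzero constant term -/
def PS (F : Type u) [Field F] (m : ℕ) : Set F[X] := {g | g.Monic ∧ g.coeff 0 ≠ 0 ∧ g.natDegree = m}

theorem monic_divX {g : F[X]} {m : ℕ} (hg : g.Monic) (hd : g.natDegree = m + 1) :
    g.divX.Monic ∧ g.divX.natDegree = m := by
  have h1 : g.divX.natDegree = m := by rw [natDegree_divX_eq_natDegree_tsub_one, hd]; rfl
  refine ⟨?_, h1⟩
  rw [Monic, leadingCoeff, h1, coeff_divX, ← hd]
  exact hg

theorem monic_X_mul {h : F[X]} {m : ℕ} (hg : h.Monic) (hd : h.natDegree = m) (c : F) :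
    (h * X + C c).Monic ∧ (h * X + C c).natDegree = m + 1 ∧ (h * X + C c).coeff 0 = c ∧ (h * X + C c).divX = h := by
  have h1 : (h * X).Monic := hg.mul monic_X
  have h2 : (h * X).natDegree = m + 1 := by rw [hg.natDegree_mul monic_X, hd, natDegree_X]
  have h3 : degree (C c) < degree (h * X) := by
    rw [degree_eq_natDegree h1.ne_zero, h2]
    exact lt_of_le_of_lt degree_C_le (by exact_mod_cast Nat.succ_pos m)
  refine ⟨h1.add_of_left h3, ?_, by simp, ?_⟩
  · rw [natDegree_add_eq_left_of_degree_lt h3, h2]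
  · have h4 := divX_mul_X_add (h * X + C c)
    have h5 : (h * X + C c).coeff 0 = c := by simp
    rw [h5] at h4
    exact mul_right_cancel₀ X_ne_zero (add_right_cancel h4)

/-- splitting off the constant term -/
noncomputable def msEquiv (m : ℕ) : MS F (m + 1) ≃ F × MS F m where
  toFun g := (g.1.coeff 0, ⟨g.1.divX, monic_divX g.2.1 g.2.2⟩)
  invFun x := ⟨x.2.1 * X + C x.1, (monic_X_mul x.2.2.1 x.2.2.2 x.1).1, (monic_X_mul x.2.2.1 x.2.2.2 x.1).2.1⟩
  left_inv g := Subtype.ext (divX_mul_X_add g.1)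
  right_inv x := by
    obtain ⟨h1, h2, h3, h4⟩ := monic_X_mul x.2.2.1 x.2.2.2 x.1
    exact Prod.ext h3 (Subtype.ext h4)

theorem card_MS (m : ℕ) : Nat.card (MS F m) = Nat.card F ^ m := by
  induction m with
  | zero =>
    rw [pow_zero, Nat.card_eq_one_iff_unique]
    constructor
    · constructor
      rintro ⟨a, ha, ha'⟩ ⟨b, hb, hb'⟩
      apply Subtype.ext
      change a = b
      rw [eq_one_of_monic_natDegree_zero ha ha', eq_one_of_monic_natDegree_zero hb hb']
    · exact ⟨⟨1, monic_one, natDegree_one⟩⟩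
  | succ m ih =>
    rw [Nat.card_congr (msEquiv m), Nat.card_prod, ih, pow_succ']

theorem finite_MS [Finite F] (m : ℕ) : Finite (MS F m) := by
  apply Nat.finite_of_card_ne_zero
  rw [card_MS]
  exact pow_ne_zero _ Nat.card_pos.ne'

/-- monic polynomials with given constant term -/
theorem card_MC (m : ℕ) (c : F) :
    Nat.card {g : F[X] // g.Monic ∧ g.coeff 0 = c ∧ g.natDegree = m + 1} = Nat.card F ^ m := by
  rw [← card_MS]
  refine Nat.card_congr ⟨fun g => ⟨g.1.divX, monic_divX g.2.1 g.2.2.2⟩,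
    fun h => ⟨h.1 * X + C c, (monic_X_mul h.2.1 h.2.2 c).1, (monic_X_mul h.2.1 h.2.2 c).2.2.1,
      (monic_X_mul h.2.1 h.2.2 c).2.1⟩, ?_, ?_⟩
  · intro g
    apply Subtype.ext
    have := divX_mul_X_add g.1
    rw [g.2.2.1] at this
    exact this
  · intro h
    exact Subtype.ext (monic_X_mul h.2.1 h.2.2 c).2.2.2

theorem PS_sub_MS (m : ℕ) : PS F m ⊆ MS F m := fun _ h => ⟨h.1, h.2.2⟩

theorem finite_PS [Finite F] (m : ℕ) : (PS F m).Finite := by
  have := finite_MS (F := F) m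
  exact (Set.toFinite (MS F m)).subset (PS_sub_MS m)

theorem card_PS_zero : Nat.card (PS F 0) = 1 := by
  rw [Nat.card_eq_one_iff_unique]
  constructor
  · constructor
    rintro ⟨a, ha, _, ha'⟩ ⟨b, hb, _, hb'⟩
    apply Subtype.ext
    change a = b
    rw [eq_one_of_monic_natDegree_zero ha ha', eq_one_of_monic_natDegree_zero hb hb']
  · exact ⟨⟨1, monic_one, by simp, natDegree_one⟩⟩

/-- splitting off a nonzero constant term -/
noncomputable def psEquiv (m : ℕ) : PS F (m + 1) ≃ {c : F // c ≠ 0} × MS F m where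
  toFun g := (⟨g.1.coeff 0, g.2.2.1⟩, ⟨g.1.divX, monic_divX g.2.1 g.2.2.2⟩)
  invFun x := ⟨x.2.1 * X + C x.1.1, (monic_X_mul x.2.2.1 x.2.2.2 x.1.1).1,
    by rw [(monic_X_mul x.2.2.1 x.2.2.2 x.1.1).2.2.1]; exact x.1.2, (monic_X_mul x.2.2.1 x.2.2.2 x.1.1).2.1⟩
  left_inv g := Subtype.ext (divX_mul_X_add g.1)
  right_inv x := by
    obtain ⟨h1, h2, h3, h4⟩ := monic_X_mul x.2.2.1 x.2.2.2 x.1.1
    exact Prod.ext (Subtype.ext h3) (Subtype.ext h4)

theorem card_PS_succ [Finite F] (m : ℕ) : Nat.card (PS F (m + 1)) = (Nat.card F - 1) * Nat.card F ^ m := by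
  have := Fintype.ofFinite F
  rw [Nat.card_congr (psEquiv m), Nat.card_prod, card_MS]
  congr 1
  rw [Nat.card_eq_fintype_card, Nat.card_eq_fintype_card, Fintype.card_subtype_compl, Fintype.card_subtype_eq]

/-! ### Types -/

/-- total degree of a type -/
def Tot (s : Multiset (F[X] × ℕ)) : ℕ := (s.map fun d => d.1.natDegree * d.2).sum

theorem Tot_add (s t : Multiset (F[X] × ℕ)) : Tot (s + t) = Tot s + Tot t := by
  rw [Tot, Multiset.map_add, Multiset.sum_add]; rfl

/-- types of total degree `n` without `X` and with exponents in `A` -/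
def TA (F : Type u) [Field F] (A : Set ℕ) (n : ℕ) : Set (Multiset (F[X] × ℕ)) :=
  {s | (∀ d ∈ s, (Good d ∧ d.1 ≠ X) ∧ d.2 ∈ A) ∧ Tot s = n}

theorem TA_mono {A B : Set ℕ} (h : A ⊆ B) (n : ℕ) : TA F A n ⊆ TA F B n :=
  fun _ hs => ⟨fun d hd => ⟨(hs.1 d hd).1, h (hs.1 d hd).2⟩, hs.2⟩

theorem finite_TA [Finite F] (A : Set ℕ) (n : ℕ) : (TA F A n).Finite := by
  apply Set.Finite.subset _ (TA_mono (Set.subset_univ A) n)
  choose typ htyp using fun g : Matrix (Fin n) (Fin n) F => exists_mtype g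
  apply (Set.finite_range typ).subset
  intro s hs
  obtain ⟨A, hA⟩ := exists_matrix n s (fun d hd => (hs.1 d hd).1.1) hs.2
  exact ⟨A, (htyp A).unique hA⟩

theorem snd_le_of_mem {A : Set ℕ} {n : ℕ} {s : Multiset (F[X] × ℕ)} (hs : s ∈ TA F A n) {d : F[X] × ℕ} (hd : d ∈ s) :
    1 ≤ d.2 ∧ d.2 ≤ n := by
  have h1 := (hs.1 d hd).1.1
  refine ⟨h1.2.2, ?_⟩
  have h2 : d.1.natDegree * d.2 ≤ n := by
    rw [← hs.2]
    exact Multiset.single_le_sum (fun _ _ => Nat.zero_le _) _ (Multiset.mem_map_of_mem _ hd)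
  have h3 : 1 ≤ d.1.natDegree := h1.2.1.natDegree_pos
  nlinarith

theorem TA_univ (n : ℕ) : TA F Set.univ n = TA F (Set.Icc 1 n) n := by
  apply Set.Subset.antisymm _ (TA_mono (Set.subset_univ _) n)
  intro s hs
  exact ⟨fun d hd => ⟨(hs.1 d hd).1, snd_le_of_mem hs hd⟩, hs.2⟩

theorem card_GL (n : ℕ) : Nat.card (ConjClasses (GL (Fin n) F)) = Nat.card (TA F Set.univ n) := by
  have h := card_classes (F := F) n (fun _ => True) (fun _ => True) (fun _ _ _ => Iff.rfl)
  have e1 : Nat.card {C : ConjClasses (GL (Fin n) F) // ∃ g : GL (Fin n) F, ConjClasses.mk g = C ∧ True} =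
      Nat.card (ConjClasses (GL (Fin n) F)) := by
    apply Nat.card_congr
    refine ⟨fun C => C.1, fun C => ⟨C, ?_⟩, fun _ => rfl, fun _ => rfl⟩
    obtain ⟨g, hg⟩ := ConjClasses.exists_rep C
    exact ⟨g, hg, trivial⟩
  rw [← e1, h]
  congr 1
  simp only [TA, Tot, and_true, Set.mem_univ]
  rfl

/-! ### Splitting off one exponent -/

/-- the factors with exponent `i` -/
noncomputable def fi (i : ℕ) (s : Multiset (F[X] × ℕ)) : Multiset (F[X] × ℕ) := s.filter (fun d => d.2 = i)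

/-- the product of the polynomials with exponent `i` -/
noncomputable def pr (i : ℕ) (s : Multiset (F[X] × ℕ)) : F[X] := ((fi i s).map Prod.fst).prod

/-- the type of a polynomial with exponents `i` -/
noncomputable def bk (i : ℕ) (g : F[X]) : Multiset (F[X] × ℕ) := (normalizedFactors g).map (fun φ => (φ, i))

theorem coeff_zero_ne {φ : F[X]} (hm : φ.Monic) (hi : Irreducible φ) (hX : φ ≠ X) : φ.coeff 0 ≠ 0 := by
  intro h0
  have h1 : X ∣ φ := X_dvd_iff.2 h0
  have h2 : Associated X φ := irreducible_X.associated_of_dvd hi h1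
  exact hX (eq_of_monic_of_associated hm monic_X h2.symm)

theorem ne_X_of_coeff_zero {φ : F[X]} (h : φ.coeff 0 ≠ 0) : φ ≠ X := by
  rintro rfl
  exact h coeff_X_zero

theorem prod_monic {m : Multiset F[X]} (h : ∀ φ ∈ m, φ.Monic ∧ Irreducible φ ∧ φ ≠ X) :
    m.prod.Monic ∧ m.prod.coeff 0 ≠ 0 ∧ m.prod.natDegree = (m.map natDegree).sum ∧ normalizedFactors m.prod = m := by
  induction m using Multiset.induction_on with
  | empty => simp
  | cons a m ih =>
    obtain ⟨i1, i2, i3, i4⟩ := ih (fun φ hφ => h φ (Multiset.mem_cons_of_mem hφ))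
    obtain ⟨a1, a2, a3⟩ := h a (Multiset.mem_cons_self a m)
    rw [Multiset.prod_cons]
    refine ⟨a1.mul i1, ?_, ?_, ?_⟩
    · rw [mul_coeff_zero]
      exact mul_ne_zero (coeff_zero_ne a1 a2 a3) i2
    · rw [a1.natDegree_mul i1, i3, Multiset.map_cons, Multiset.sum_cons]
    · rw [normalizedFactors_mul a1.ne_zero i1.ne_zero, i4, normalizedFactors_irreducible a2,
        a1.normalize_eq_self, Multiset.singleton_add]

theorem prod_factors {g : F[X]} (hg : g.Monic) : (normalizedFactors g).prod = g := by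
  have h := prod_normalizedFactors_eq hg.ne_zero
  rw [h, hg.normalize_eq_self]

theorem factor_facts {g : F[X]} (hg : g.Monic) (h0 : g.coeff 0 ≠ 0) {φ : F[X]} (hφ : φ ∈ normalizedFactors g) :
    φ.Monic ∧ Irreducible φ ∧ φ ≠ X := by
  have h1 := irreducible_of_normalized_factor φ hφ
  have h2 := normalize_normalized_factor φ hφ
  have h3 : φ.Monic := by
    rw [← h2]
    exact monic_normalize h1.ne_zero
  refine ⟨h3, h1, ?_⟩
  rintro rfl
  apply h0
  have h4 := dvd_of_mem_normalizedFactors hφ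
  exact X_dvd_iff.1 h4

theorem mem_fi {i : ℕ} {s : Multiset (F[X] × ℕ)} {d : F[X] × ℕ} : d ∈ fi i s ↔ d ∈ s ∧ d.2 = i := Multiset.mem_filter

theorem fi_eq_map {i : ℕ} {s : Multiset (F[X] × ℕ)} : fi i s = ((fi i s).map Prod.fst).map (fun φ => (φ, i)) := by
  rw [Multiset.map_map]
  conv_lhs => rw [← Multiset.map_id (fi i s)]
  apply Multiset.map_congr rfl
  intro d hd
  rw [← (mem_fi.1 hd).2]
  rfl

theorem pr_facts {i : ℕ} {s : Multiset (F[X] × ℕ)} (hs : ∀ d ∈ s, Good d ∧ d.1 ≠ X) :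
    (pr i s).Monic ∧ (pr i s).coeff 0 ≠ 0 ∧ i * (pr i s).natDegree = Tot (fi i s) ∧ bk i (pr i s) = fi i s := by
  have h1 : ∀ φ ∈ (fi i s).map Prod.fst, φ.Monic ∧ Irreducible φ ∧ φ ≠ X := by
    intro φ hφ
    obtain ⟨d, hd, rfl⟩ := Multiset.mem_map.1 hφ
    have h2 := hs d (mem_fi.1 hd).1
    exact ⟨h2.1.1, h2.1.2.1, h2.2⟩
  obtain ⟨a1, a2, a3, a4⟩ := prod_monic h1
  refine ⟨a1, a2, ?_, ?_⟩
  · rw [pr, a3, Tot, Multiset.map_map, ← Multiset.sum_map_mul_left]
    congr 1
    apply Multiset.map_congr rfl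
    intro d hd
    rw [(mem_fi.1 hd).2]
    simp only [Function.comp_apply]
    ring
  · rw [bk, pr, a4, ← fi_eq_map]

theorem bk_facts (i : ℕ) (hi : 1 ≤ i) {g : F[X]} (hg : g.Monic) (h0 : g.coeff 0 ≠ 0) :
    (∀ d ∈ bk i g, (Good d ∧ d.1 ≠ X) ∧ d.2 = i) ∧ Tot (bk i g) = i * g.natDegree ∧ pr i (bk i g) = g := by
  have h1 : ∀ d ∈ bk i g, (Good d ∧ d.1 ≠ X) ∧ d.2 = i := by
    intro d hd
    obtain ⟨φ, hφ, rfl⟩ := Multiset.mem_map.1 hd
    obtain ⟨a1, a2, a3⟩ := factor_facts hg h0 hφ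
    exact ⟨⟨⟨a1, a2, hi⟩, a3⟩, rfl⟩
  have h2 : fi i (bk i g) = bk i g := Multiset.filter_eq_self.2 (fun d hd => (h1 d hd).2)
  have h3 : (bk i g).map Prod.fst = normalizedFactors g := by
    rw [bk, Multiset.map_map]
    exact Multiset.map_id _
  refine ⟨h1, ?_, ?_⟩
  · have h4 : ∀ φ ∈ normalizedFactors g, φ.Monic ∧ Irreducible φ ∧ φ ≠ X := fun φ hφ => factor_facts hg h0 hφ
    have h5 := (prod_monic h4).2.2.1
    rw [prod_factors hg] at h5
    rw [h5, Tot, bk, Multiset.map_map, ← Multiset.sum_map_mul_left]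
    congr 1
    apply Multiset.map_congr rfl
    intro φ _
    simp only [Function.comp_apply]
    ring
  · rw [pr, h2, h3, prod_factors hg]

/-- splitting off one exponent -/
noncomputable def splitEquiv {i : ℕ} (hi : 1 ≤ i) {A : Set ℕ} (hA : i ∉ A) (n : ℕ) :
    TA F (insert i A) n ≃ {x : F[X] × Multiset (F[X] × ℕ) // (x.1.Monic ∧ x.1.coeff 0 ≠ 0) ∧
      i * x.1.natDegree ≤ n ∧ x.2 ∈ TA F A (n - i * x.1.natDegree)} where
  toFun s := ⟨(pr i s.1, s.1.filter (fun d => ¬ d.2 = i)), by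
    have hs := s.2
    obtain ⟨a1, a2, a3, a4⟩ := pr_facts (i := i) (fun d hd => (hs.1 d hd).1)
    have h1 : Tot (fi i s.1) + Tot (s.1.filter (fun d => ¬ d.2 = i)) = n := by
      rw [← Tot_add, fi, Multiset.filter_add_not, hs.2]
    refine ⟨⟨a1, a2⟩, ?_, ?_, ?_⟩
    · change i * (pr i s.1).natDegree ≤ n
      rw [a3]; omega
    · intro d hd
      obtain ⟨hd1, hd2⟩ := Multiset.mem_filter.1 hd
      refine ⟨(hs.1 d hd1).1, ?_⟩
      rcases (hs.1 d hd1).2 with h | h
      · exact absurd h hd2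
      · exact h
    · change Tot (s.1.filter (fun d => ¬ d.2 = i)) = n - i * (pr i s.1).natDegree
      rw [a3]; omega⟩
  invFun x := ⟨bk i x.1.1 + x.1.2, by
    obtain ⟨⟨b1, b2⟩, b3, b4⟩ := x.2
    obtain ⟨c1, c2, c3⟩ := bk_facts i hi b1 b2
    constructor
    · intro d hd
      rcases Multiset.mem_add.1 hd with h | h
      · exact ⟨(c1 d h).1, Or.inl (c1 d h).2⟩
      · exact ⟨(b4.1 d h).1, Or.inr (b4.1 d h).2⟩
    · rw [Tot_add, c2, b4.2]; omega⟩
  left_inv s := by
    apply Subtype.ext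
    change bk i (pr i s.1) + s.1.filter (fun d => ¬ d.2 = i) = s.1
    rw [(pr_facts (fun d hd => (s.2.1 d hd).1)).2.2.2, fi, Multiset.filter_add_not]
  right_inv x := by
    obtain ⟨⟨b1, b2⟩, b3, b4⟩ := x.2
    obtain ⟨c1, c2, c3⟩ := bk_facts i hi b1 b2
    have h1 : x.1.2.filter (fun d => d.2 = i) = 0 := by
      rw [Multiset.filter_eq_nil]
      intro d hd h
      exact hA (h ▸ (b4.1 d hd).2)
    have h2 : x.1.2.filter (fun d => ¬ d.2 = i) = x.1.2 := by
      rw [Multiset.filter_eq_self]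
      intro d hd h
      exact hA (h ▸ (b4.1 d hd).2)
    have h3 : (bk i x.1.1).filter (fun d => ¬ d.2 = i) = 0 := by
      rw [Multiset.filter_eq_nil]
      intro d hd h
      exact h (c1 d hd).2
    apply Subtype.ext
    apply Prod.ext
    · change pr i (bk i x.1.1 + x.1.2) = x.1.1
      rw [pr, fi, Multiset.filter_add, h1, add_zero]
      exact c3
    · change (bk i x.1.1 + x.1.2).filter (fun d => ¬ d.2 = i) = x.1.2
      rw [Multiset.filter_add, h3, h2, zero_add]


/-! ### Counting -/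

/-- pairs, fibred over the degree and the second component -/
def pairEquiv {β : Type*} {i : ℕ} (hi : 1 ≤ i) (n : ℕ) (P : F[X] → Prop) (T : ℕ → Set β) (R : F[X] → β → Prop) :
    {x : F[X] × β // (P x.1 ∧ i * x.1.natDegree ≤ n ∧ x.2 ∈ T (n - i * x.1.natDegree)) ∧ R x.1 x.2} ≃
      Σ m : Fin (n / i + 1), Σ t : T (n - i * m), {g : F[X] // P g ∧ g.natDegree = m ∧ R g t} where
  toFun x := ⟨⟨x.1.1.natDegree, by
      have := x.2.1.2.1
      rw [Nat.lt_succ_iff, Nat.le_div_iff_mul_le hi, mul_comm]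
      exact this⟩, ⟨x.1.2, x.2.1.2.2⟩, ⟨x.1.1, x.2.1.1, rfl, x.2.2⟩⟩
  invFun y := ⟨(y.2.2.1, y.2.1.1), ⟨y.2.2.2.1, by
      have h1 := y.1.2
      rw [Nat.lt_succ_iff, Nat.le_div_iff_mul_le hi, mul_comm] at h1
      change i * y.2.2.1.natDegree ≤ n
      rw [y.2.2.2.2.1]
      exact h1, by
      change y.2.1.1 ∈ T (n - i * y.2.2.1.natDegree)
      rw [y.2.2.2.2.1]
      exact y.2.1.2⟩, y.2.2.2.2.2⟩
  left_inv x := rfl
  right_inv y := by
    obtain ⟨⟨m, hm⟩, ⟨t, ht⟩, ⟨g, hg1, hg2, hg3⟩⟩ := y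
    change g.natDegree = m at hg2
    subst hg2
    rfl

theorem card_pairs [Finite F] {β : Type*} {i : ℕ} (hi : 1 ≤ i) (n : ℕ) (P : F[X] → Prop) (T : ℕ → Set β)
    [hT : ∀ m, Fintype (T m)] (hP : ∀ m, {g : F[X] | P g ∧ g.natDegree = m}.Finite) (R : F[X] → β → Prop) :
    Nat.card {x : F[X] × β // (P x.1 ∧ i * x.1.natDegree ≤ n ∧ x.2 ∈ T (n - i * x.1.natDegree)) ∧ R x.1 x.2} =
      ∑ m ∈ Finset.range (n / i + 1), ∑ t : T (n - i * m), Nat.card {g : F[X] // P g ∧ g.natDegree = m ∧ R g t} := by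
  have hfin : ∀ (m : ℕ) (t : β), Finite {g : F[X] // P g ∧ g.natDegree = m ∧ R g t} := by
    intro m t
    exact ((hP m).subset (fun g hg => ⟨hg.1, hg.2.1⟩)).to_subtype
  rw [Nat.card_congr (pairEquiv hi n P T R), Nat.card_sigma, ← Fin.sum_univ_eq_sum_range
    (fun m => ∑ t : T (n - i * m), Nat.card {g : F[X] // P g ∧ g.natDegree = m ∧ R g t})]
  apply Finset.sum_congr rfl
  intro m _
  rw [Nat.card_sigma]

theorem finite_P [Finite F] (m : ℕ) : {g : F[X] | (g.Monic ∧ g.coeff 0 ≠ 0) ∧ g.natDegree = m}.Finite :=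
  (finite_PS m).subset (fun g hg => ⟨hg.1.1, hg.1.2, hg.2⟩)

/-- recursion for the number of types -/
theorem card_TA_insert [Finite F] {i : ℕ} (hi : 1 ≤ i) {A : Set ℕ} (hA : i ∉ A) (n : ℕ) :
    Nat.card (TA F (insert i A) n) =
      ∑ m ∈ Finset.range (n / i + 1), Nat.card (PS F m) * Nat.card (TA F A (n - i * m)) := by
  have hT : ∀ m, Fintype (TA F A m) := fun m => (finite_TA A m).fintype
  have h := card_pairs (F := F) hi n (fun g => g.Monic ∧ g.coeff 0 ≠ 0) (fun m => TA F A m) finite_P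
    (fun _ _ => True)
  rw [Nat.card_congr (splitEquiv hi hA n)]
  simp only [and_true] at h
  rw [h]
  apply Finset.sum_congr rfl
  intro m _
  rw [Finset.sum_const, Finset.card_univ, smul_eq_mul, mul_comm, Nat.card_eq_fintype_card (α := TA F A _)]
  congr 1
  congr 1
  simp only [PS, and_assoc]
  rfl

theorem TA_zero (A : Set ℕ) : TA F A 0 = {0} := by
  ext s
  rw [Set.mem_singleton_iff]
  constructor
  · intro hs
    rw [Multiset.eq_zero_iff_forall_notMem]
    intro d hd
    have := snd_le_of_mem hs hd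
    omega
  · rintro rfl
    exact ⟨fun d hd => absurd hd (Multiset.notMem_zero d), rfl⟩

theorem card_TA_zero (A : Set ℕ) : Nat.card (TA F A 0) = 1 := by
  rw [TA_zero]
  simp

theorem card_TA_empty (n : ℕ) (hn : 1 ≤ n) : Nat.card (TA F ∅ n) = 0 := by
  have : TA F ∅ n = ∅ := by
    rw [Set.eq_empty_iff_forall_notMem]
    intro s hs
    have h0 : s = 0 := by
      rw [Multiset.eq_zero_iff_forall_notMem]
      intro d hd
      exact (hs.1 d hd).2
    have h1 := hs.2
    rw [h0] at h1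
    simp [Tot] at h1
    omega
  rw [this]
  simp

/-- numeric form of the recursion -/
theorem card_TA_insert' [Finite F] {i : ℕ} (hi : 1 ≤ i) {A : Set ℕ} (hA : i ∉ A) (n : ℕ) :
    Nat.card (TA F (insert i A) n) = Nat.card (TA F A n) +
      (Nat.card F - 1) * ∑ m ∈ Finset.range (n / i), Nat.card F ^ m * Nat.card (TA F A (n - i * (m + 1))) := by
  rw [card_TA_insert hi hA, Finset.sum_range_succ', card_PS_zero, one_mul, mul_zero, Nat.sub_zero, add_comm,
    Finset.mul_sum]
  congr 1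
  apply Finset.sum_congr rfl
  intro m _
  rw [card_PS_succ]
  ring

/-- the auxiliary sum -/
noncomputable def S (F : Type u) [Field F] (i : ℕ) (A : Set ℕ) (n : ℕ) : ℕ :=
  ∑ m ∈ Finset.range (n / i + 1), Nat.card F ^ m * Nat.card (TA F A (n - i * m))

theorem S_lt {i : ℕ} {A : Set ℕ} {n : ℕ} (h : n < i) : S F i A n = Nat.card (TA F A n) := by
  rw [S, Nat.div_eq_of_lt h]
  simp

theorem S_ge {i : ℕ} (hi : 1 ≤ i) {A : Set ℕ} {n : ℕ} (h : i ≤ n) :
    S F i A n = Nat.card (TA F A n) + Nat.card F * S F i A (n - i) := by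
  have h1 : n / i = (n - i) / i + 1 := Nat.div_eq_sub_div hi h
  rw [S, S, Finset.sum_range_succ', h1, pow_zero, one_mul, mul_zero, Nat.sub_zero, add_comm, Finset.mul_sum]
  congr 1
  apply Finset.sum_congr rfl
  intro m _
  rw [pow_succ', mul_assoc]
  congr 4
  rw [mul_add, mul_one, Nat.sub_sub, add_comm]

theorem card_TA_insert_ge [Finite F] {i : ℕ} (hi : 1 ≤ i) {A : Set ℕ} (hA : i ∉ A) {n : ℕ} (h : i ≤ n) :
    Nat.card (TA F (insert i A) n) = Nat.card (TA F A n) + (Nat.card F - 1) * S F i A (n - i) := by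
  rw [card_TA_insert' hi hA, Nat.div_eq_sub_div hi h, S]
  congr 2
  apply Finset.sum_congr rfl
  intro m _
  congr 3
  rw [mul_add, mul_one, Nat.sub_sub, add_comm]

theorem card_TA_insert_lt [Finite F] {i : ℕ} (hi : 1 ≤ i) {A : Set ℕ} (hA : i ∉ A) {n : ℕ} (h : n < i) :
    Nat.card (TA F (insert i A) n) = Nat.card (TA F A n) := by
  rw [card_TA_insert' hi hA, Nat.div_eq_of_lt h]
  simp

theorem S_le {k : ℕ} {A : Set ℕ}
    (h : ∀ n, 1 ≤ n → Nat.card (TA F A n) + Nat.card F ^ (n - k) ≤ Nat.card F ^ n) (n : ℕ) :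
    S F (k + 1) A n ≤ Nat.card F ^ n := by
  induction n using Nat.strong_induction_on with
  | _ n ih =>
    rcases Nat.lt_or_ge n (k + 1) with h1 | h1
    · rw [S_lt h1]
      rcases Nat.eq_zero_or_pos n with h2 | h2
      · subst h2
        rw [card_TA_zero, pow_zero]
      · have := h n h2
        omega
    · rw [S_ge (by omega) h1]
      have h2 := ih (n - (k + 1)) (by omega)
      have h3 := h n (by omega)
      have h4 : Nat.card F * S F (k + 1) A (n - (k + 1)) ≤ Nat.card F ^ (n - k) := by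
        calc Nat.card F * S F (k + 1) A (n - (k + 1)) ≤ Nat.card F * Nat.card F ^ (n - (k + 1)) :=
              Nat.mul_le_mul_left _ h2
          _ = Nat.card F ^ (n - k) := by
              rw [← pow_succ']; congr 1; omega
      omega

/-- the number of types of degree `n` is less than `q ^ n` -/
theorem card_TA_Icc_le [Finite F] (k : ℕ) : ∀ n, 1 ≤ n →
    Nat.card (TA F (Set.Icc 1 k) n) + Nat.card F ^ (n - k) ≤ Nat.card F ^ n := by
  have hq : 1 ≤ Nat.card F := Nat.card_pos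
  induction k with
  | zero =>
    intro n hn
    have : Set.Icc 1 0 = (∅ : Set ℕ) := by simp
    rw [this, card_TA_empty n hn]
    simp
  | succ k ih =>
    intro n hn
    have h1 : Set.Icc 1 (k + 1) = insert (k + 1) (Set.Icc 1 k) := by
      ext x
      simp only [Set.mem_Icc, Set.mem_insert_iff]
      omega
    have h2 : k + 1 ∉ Set.Icc 1 k := by simp
    have h3 := ih n hn
    rw [h1]
    rcases Nat.lt_or_ge n (k + 1) with h4 | h4
    · rw [card_TA_insert_lt (by omega) h2 h4]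
      have e1 : n - (k + 1) = n - k := by omega
      rw [e1]
      exact h3
    · rw [card_TA_insert_ge (by omega) h2 h4]
      have h5 := S_le ih (n - (k + 1))
      have h6 : (Nat.card F - 1) * S F (k + 1) (Set.Icc 1 k) (n - (k + 1)) ≤
          (Nat.card F - 1) * Nat.card F ^ (n - (k + 1)) := Nat.mul_le_mul_left _ h5
      have h7 : (Nat.card F - 1) * Nat.card F ^ (n - (k + 1)) + Nat.card F ^ (n - (k + 1)) = Nat.card F ^ (n - k) := by
        have e2 : n - k = (n - (k + 1)) + 1 := by omega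
        rw [e2, pow_succ', Nat.sub_one_mul]
        have : Nat.card F ^ (n - (k + 1)) ≤ Nat.card F * Nat.card F ^ (n - (k + 1)) := Nat.le_mul_of_pos_left _ hq
        omega
      omega

theorem card_TA_univ_lt [Finite F] {n : ℕ} (hn : 1 ≤ n) : Nat.card (TA F Set.univ n) < Nat.card F ^ n := by
  rw [TA_univ]
  have := card_TA_Icc_le (F := F) n n hn
  rw [Nat.sub_self, pow_zero] at this
  omega

/-- the types with all exponents one -/
theorem card_TA_one [Finite F] (n : ℕ) : Nat.card (TA F {1} n) = Nat.card (PS F n) := by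
  have h := card_TA_insert (F := F) (i := 1) (le_refl 1) (A := ∅) (by simp) n
  rw [show (insert 1 (∅ : Set ℕ)) = {1} by simp] at h
  rw [h, Finset.sum_eq_single_of_mem n]
  · rw [one_mul, Nat.sub_self, card_TA_zero, mul_one]
  · rw [Nat.div_one]; simp
  · intro m hm hmn
    rw [Nat.div_one, Finset.mem_range] at hm
    rw [card_TA_empty _ (by omega), mul_zero]

end Cfsg.Agent.Lib.GLCount
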