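import Mathlib

/-!
(helper67) Derived series of wreath products and of finite `p`-groups acting on small sets.
-/

set_option autoImplicit false

open scoped commutatorElement

namespace Cfsg.Agent.Lib.WreathDer67

universe u

/-- If `P' ≤ M` then `P^(i+1) ≤ M^(i)`. -/
theorem derivedSeries_succ_le {P : Type*} [Group P] {M : Subgroup P} (hM : commutator P ≤ M) (i : ℕ) :
    derivedSeries P (i + 1) ≤ (derivedSeries M i).map M.subtype := by
  induction i with
  | zero =>
    rw [derivedSeries_one, derivedSeries_zero, ← MonoidHom.range_eq_map, Subgroup.range_subtype]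
    exact hM
  | succ i ih =>
    rw [derivedSeries_succ P (i + 1), derivedSeries_succ M i, Subgroup.map_commutator]
    exact Subgroup.commutator_mono ih ih

/-- A finite `p`-group: `P^(i)` lies in every subgroup of index `p ^ i`. -/
theorem derivedSeries_le_of_index {p : ℕ} [hp : Fact p.Prime] (i : ℕ) : ∀ {P : Type u} [Group P] [Finite P],
    IsPGroup p P → ∀ H : Subgroup P, H.index = p ^ i → derivedSeries P i ≤ H := by
  induction i with
  | zero =>
    intro P _ _ _ H hH
    rw [pow_zero, Subgroup.index_eq_one] at hH
    rw [hH]; exact le_top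
  | succ i ih =>
    intro P _ _ hP H hH
    have hHtop : H ≠ ⊤ := by
      intro h
      rw [h, Subgroup.index_top] at hH
      exact absurd hH (Nat.one_lt_pow (Nat.succ_ne_zero i) hp.out.one_lt).ne
    obtain ⟨M, hM, hHM⟩ := (eq_top_or_exists_le_coatom H).resolve_left hHtop
    have hnil : Group.IsNilpotent P := hP.isNilpotent
    have hMn : M.Normal := Subgroup.NormalizerCondition.normal_of_coatom M Group.normalizerCondition_of_isNilpotent hM
    have hMidx : M.index = p := by
      obtain ⟨n, hn⟩ := IsPGroup.iff_card.1 (hP.to_quotient M)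
      have hn' : M.index = p ^ n := hn
      have hsim : IsSimpleGroup (P ⧸ M) := by
        have hnt : Nontrivial (P ⧸ M) := by
          rw [QuotientGroup.nontrivial_iff]; exact hM.1
        refine ⟨fun K hK => ?_⟩
        have h1 : M ≤ K.comap (QuotientGroup.mk' M) := by
          intro x hx
          rw [Subgroup.mem_comap]
          have : QuotientGroup.mk' M x = 1 := (QuotientGroup.eq_one_iff x).2 hx
          rw [this]; exact K.one_mem
        rcases hM.le_iff.1 h1 with h2 | h2
        · right
          rw [eq_top_iff]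
          intro y _
          obtain ⟨x, rfl⟩ := QuotientGroup.mk'_surjective M y
          have : x ∈ K.comap (QuotientGroup.mk' M) := by rw [h2]; trivial
          exact this
        · left
          rw [eq_bot_iff]
          intro y hy
          obtain ⟨x, rfl⟩ := QuotientGroup.mk'_surjective M y
          have : x ∈ K.comap (QuotientGroup.mk' M) := hy
          rw [h2] at this
          exact (QuotientGroup.eq_one_iff x).2 this
      have hcomm : IsMulCommutative (P ⧸ M) := by
        have hq : IsPGroup p (P ⧸ M) := hP.to_quotient M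
        have hc := hq.center_nontrivial
        have hnt' := hsim
        rcases hsim.eq_bot_or_eq_top_of_normal (Subgroup.center (P ⧸ M)) inferInstance with h1 | h1
        · exact absurd h1 ((Subgroup.nontrivial_iff_ne_bot _).1 hc)
        · refine ⟨⟨fun a b => ?_⟩⟩
          have : b ∈ Subgroup.center (P ⧸ M) := by rw [h1]; trivial
          exact Subgroup.mem_center_iff.1 this a
      have hpr : (Nat.card (P ⧸ M)).Prime := by
        let inst : CommGroup (P ⧸ M) := { (inferInstance : Group (P ⧸ M)) with
          mul_comm := fun a b => hcomm.is_comm.comm a b }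
        have := hsim
        exact IsSimpleGroup.prime_card (α := P ⧸ M)
      rw [hn] at hpr
      have h1 : n = 1 := by
        rcases Nat.lt_trichotomy n 1 with h | h | h
        · have : n = 0 := by omega
          rw [this, pow_zero] at hpr; exact absurd hpr Nat.not_prime_one
        · exact h
        · exact absurd hpr (Nat.Prime.not_prime_pow h)
      rw [hn', h1, pow_one]
    have hcomm : commutator P ≤ M := by
      have hcard : Nat.card (P ⧸ M) = p := hMidx
      have hcyc : IsCyclic (P ⧸ M) := isCyclic_of_prime_card hcard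
      rw [commutator_def, Subgroup.commutator_le]
      intro a _ b _
      rw [← QuotientGroup.eq_one_iff]
      have h1 : ((⁅a, b⁆ : P) : P ⧸ M) = ⁅(a : P ⧸ M), (b : P ⧸ M)⁆ := rfl
      rw [h1, commutatorElement_eq_one_iff_mul_comm]
      exact IsCyclic.isMulCommutative.is_comm.comm _ _
    have hidx : (H.subgroupOf M).index = p ^ i := by
      have h1 := Subgroup.relIndex_mul_index hHM
      rw [hMidx, hH, pow_succ] at h1
      exact Nat.eq_of_mul_eq_mul_right hp.out.pos h1
    have h1 := ih (hP.to_subgroup M) (H.subgroupOf M) hidx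
    calc derivedSeries P (i + 1) ≤ (derivedSeries M i).map M.subtype := derivedSeries_succ_le hcomm i
      _ ≤ (H.subgroupOf M).map M.subtype := Subgroup.map_mono h1
      _ ≤ H := by rw [Subgroup.subgroupOf_map_subtype]; exact inf_le_left

section Wreath

open RegularWreathProduct

variable {D Q : Type*} [Group D] [Group Q]

/-- evaluation at `1` on the base group. -/
def evalOne : (rightHom : D ≀ᵣ Q →* Q).ker →* D where
  toFun w := (w : D ≀ᵣ Q).left 1
  map_one' := rfl
  map_mul' := by
    rintro ⟨a, ha⟩ ⟨b, hb⟩
    show (a * b).left 1 = a.left 1 * b.left 1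
    have ha' : a.right = 1 := ha
    rw [RegularWreathProduct.mul_left]
    simp [ha']

theorem derivedSeries_le_map [Nontrivial Q] (j : ℕ) :
    derivedSeries D j ≤
      ((derivedSeries (D ≀ᵣ Q) (j + 1)).subgroupOf (rightHom : D ≀ᵣ Q →* Q).ker).map evalOne := by
  classical
  induction j with
  | zero =>
    intro d _
    obtain ⟨q, hq⟩ := exists_ne (1 : Q)
    let a : D ≀ᵣ Q := ⟨Pi.mulSingle 1 d, 1⟩
    let b : D ≀ᵣ Q := ⟨1, q⟩
    have hr : ⁅a, b⁆ ∈ (rightHom : D ≀ᵣ Q →* Q).ker := by
      rw [MonoidHom.mem_ker, map_commutatorElement]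
      have : (rightHom : D ≀ᵣ Q →* Q) a = 1 := rfl
      rw [this, commutatorElement_one_left]
    refine ⟨⟨⁅a, b⁆, hr⟩, ?_, ?_⟩
    · show (⟨⁅a, b⁆, hr⟩ : (rightHom : D ≀ᵣ Q →* Q).ker) ∈ (derivedSeries (D ≀ᵣ Q) (0 + 1)).subgroupOf _
      rw [Subgroup.mem_subgroupOf]
      rw [zero_add, derivedSeries_one]
      exact Subgroup.commutator_mem_commutator (Subgroup.mem_top a) (Subgroup.mem_top b)
    · show (⁅a, b⁆ : D ≀ᵣ Q).left 1 = d
      rw [commutatorElement_def]
      simp only [RegularWreathProduct.mul_left, RegularWreathProduct.mul_right, RegularWreathProduct.inv_left,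
        RegularWreathProduct.inv_right, Pi.mul_apply]
      simp [a, b, hq]
  | succ j ih =>
    rw [derivedSeries_succ]
    refine (Subgroup.commutator_mono ih ih).trans ?_
    rw [← Subgroup.map_commutator]
    apply Subgroup.map_mono
    rw [Subgroup.commutator_le]
    intro x hx y hy
    rw [Subgroup.mem_subgroupOf] at hx hy ⊢
    rw [derivedSeries_succ]
    exact Subgroup.commutator_mem_commutator hx hy

theorem derivedSeries_wreath_ne_bot [Nontrivial Q] {j : ℕ} (h : derivedSeries D j ≠ ⊥) :
    derivedSeries (D ≀ᵣ Q) (j + 1) ≠ ⊥ := by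
  intro h1
  apply h
  rw [eq_bot_iff]
  refine (derivedSeries_le_map (Q := Q) j).trans ?_
  rw [h1]
  rintro _ ⟨x, hx, rfl⟩
  have hx' : x = 1 := by
    have h2 : x ∈ (⊥ : Subgroup (D ≀ᵣ Q)).subgroupOf (rightHom : D ≀ᵣ Q →* Q).ker := hx
    rw [Subgroup.mem_subgroupOf, Subgroup.mem_bot] at h2
    exact Subtype.ext h2
  rw [hx', map_one]
  exact one_mem _

theorem derivedSeries_iterated_ne_bot (G : Type u) [Group G] [Nontrivial G] (k : ℕ) :
    derivedSeries (IteratedWreathProduct G (k + 1)) k ≠ ⊥ := by
  induction k with
  | zero =>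
    rw [derivedSeries_zero]
    obtain ⟨g, hg⟩ := exists_ne (1 : G)
    intro h
    let w : IteratedWreathProduct G (0 + 1) := (⟨1, g⟩ : PUnit.{u+1} ≀ᵣ G)
    have h1 : w ∈ (⊤ : Subgroup (IteratedWreathProduct G (0 + 1))) := Subgroup.mem_top _
    rw [h] at h1
    have h2 : w = 1 := Subgroup.mem_bot.1 h1
    exact hg (congrArg RegularWreathProduct.right h2)
  | succ k ih => exact derivedSeries_wreath_ne_bot (D := IteratedWreathProduct G (k + 1)) (Q := G) ih

end Wreath

end Cfsg.Agent.Lib.WreathDer67
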