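import Mathlib
import Cfsg.Agent.Lib.WreathDer67

/-!
(helper67) Derived length of finite `p`-groups acting linearly in characteristic different from `p`
over an algebraically closed field: at most `log_p n + 1`.
-/

set_option autoImplicit false

open scoped commutatorElement
open Module

namespace Cfsg.Agent.Lib.LinPGroup67

open Cfsg.Agent.Lib

universe u v w

theorem exists_second_center {P : Type u} [Group P] [Finite P] {p : ℕ} [hp : Fact p.Prime] (hP : IsPGroup p P)
    {H : Type v} [Group H] (f : P →* H) (hna : ∃ g h, f g * f h ≠ f h * f g) :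
    ∃ x : P, (∃ g : P, f g * f x ≠ f x * f g) ∧ ∀ g h : P, f ⁅g, x⁆ * f h = f h * f ⁅g, x⁆ := by
  let Q := f.range
  have hQp : IsPGroup p Q := hP.of_surjective f.rangeRestrict f.rangeRestrict_surjective
  have hQfin : Finite Q := Finite.of_surjective f.rangeRestrict f.rangeRestrict_surjective
  have hZ : Subgroup.center Q ≠ ⊤ := by
    intro h
    obtain ⟨g, h', hgh⟩ := hna
    apply hgh
    have h1 : (⟨f h', ⟨h', rfl⟩⟩ : Q) ∈ Subgroup.center Q := by rw [h]; trivial
    have h2 := Subgroup.mem_center_iff.1 h1 (⟨f g, ⟨g, rfl⟩⟩ : Q)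
    exact congrArg Subtype.val h2
  have hnt : Nontrivial (Q ⧸ Subgroup.center Q) := (QuotientGroup.nontrivial_iff).2 hZ
  have hc := (hQp.to_quotient (Subgroup.center Q)).center_nontrivial
  obtain ⟨⟨y, hy⟩, hy1⟩ := exists_ne (1 : Subgroup.center (Q ⧸ Subgroup.center Q))
  obtain ⟨⟨_, x, rfl⟩, rfl⟩ := QuotientGroup.mk_surjective y
  have hcomm : ∀ g : P, f ⁅g, x⁆ ∈ (Subgroup.center Q).map Q.subtype := by
    intro g
    have h1 := Subgroup.mem_center_iff.1 hy ((⟨f g, ⟨g, rfl⟩⟩ : Q) : Q ⧸ Subgroup.center Q)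
    have h2 : ⁅(⟨f g, ⟨g, rfl⟩⟩ : Q), (⟨f x, ⟨x, rfl⟩⟩ : Q)⁆ ∈ Subgroup.center Q := by
      rw [← QuotientGroup.eq_one_iff]
      have h3 : ((⁅(⟨f g, ⟨g, rfl⟩⟩ : Q), (⟨f x, ⟨x, rfl⟩⟩ : Q)⁆ : Q) : Q ⧸ Subgroup.center Q) =
        ⁅((⟨f g, ⟨g, rfl⟩⟩ : Q) : Q ⧸ Subgroup.center Q), ((⟨f x, ⟨x, rfl⟩⟩ : Q) : Q ⧸ Subgroup.center Q)⁆ := rfl
      rw [h3, commutatorElement_eq_one_iff_mul_comm]
      exact h1
    refine ⟨_, h2, ?_⟩
    rw [map_commutatorElement Q.subtype, map_commutatorElement f]; rfl
  refine ⟨x, ?_, ?_⟩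
  · by_contra hcon
    push Not at hcon
    apply hy1
    apply Subtype.ext
    show ((⟨f x, ⟨x, rfl⟩⟩ : Q) : Q ⧸ Subgroup.center Q) = 1
    rw [QuotientGroup.eq_one_iff, Subgroup.mem_center_iff]
    rintro ⟨_, g, rfl⟩
    exact Subtype.ext (hcon g)
  · intro g h
    obtain ⟨z, hz, hz1⟩ := hcomm g
    have h2 := Subgroup.mem_center_iff.1 hz (⟨f h, ⟨h, rfl⟩⟩ : Q)
    rw [← hz1]
    exact (congrArg Subtype.val h2).symm

section
variable {F : Type w} [Field F] {V : Type v} [AddCommGroup V] [Module F V]

/-- sums of vectors in different eigenspaces. -/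
theorem eq_zero_of_sum_eigen {T : End F V} {ι : Type*} [Fintype ι] (μ : ι → F) (hμ : Function.Injective μ)
    (u : ι → V) (hu : ∀ i, T (u i) = μ i • u i) (hsum : ∑ i, u i = 0) (i : ι) : u i = 0 := by
  classical
  by_contra hi
  let S := {i : ι // u i ≠ 0}
  have hlin : LinearIndependent F (fun s : S => u s) := by
    apply Module.End.eigenvectors_linearIndependent' T (fun s : S => μ s) (hμ.comp Subtype.val_injective)
    intro s
    rw [Module.End.hasEigenvector_iff]
    exact ⟨Module.End.mem_eigenspace_iff.2 (hu s), s.2⟩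
  have h1 : ∑ s : S, (1 : F) • u s = 0 := by
    have h2 : ∑ s : S, u s = ∑ i, u i := by
      exact (Finset.sum_subtype (p := fun i => u i ≠ 0) (Finset.univ.filter (fun i => u i ≠ 0)) (by simp) u).symm.trans
        (Finset.sum_filter_ne_zero _)
    simp only [one_smul]
    rw [h2, hsum]
  have h3 := Fintype.linearIndependent_iff.1 hlin (fun _ => 1) h1 ⟨i, hi⟩
  exact one_ne_zero h3

end

theorem thmA {F : Type w} [Field F] [IsAlgClosed F] (p : ℕ) [hp : Fact p.Prime] (hpF : (p : F) ≠ 0) (n : ℕ) :
    ∀ {P : Type u} [Group P] [Finite P], IsPGroup p P → ∀ {V : Type v} [AddCommGroup V] [Module F V]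
    [FiniteDimensional F V] (ρ : Representation F P V), finrank F V = n →
    ∀ g ∈ derivedSeries P (Nat.log p n + 1), ρ g = 1 := by
  classical
  induction n using Nat.strong_induction_on with
  | _ n ih =>
  intro P _ _ hP V _ _ _ ρ hn g hg
  by_cases hred : ∃ U : Submodule F V, (∀ g, ∀ v ∈ U, ρ g v ∈ U) ∧ U ≠ ⊥ ∧ U ≠ ⊤
  · -- reducible case
    obtain ⟨U0, hU, hU1, hU2⟩ := hred
    obtain ⟨k, hk⟩ := IsPGroup.iff_card.1 hP
    have hne : NeZero (Nat.card P : F) := ⟨by rw [hk]; push_cast; exact pow_ne_zero _ hpF⟩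
    let U : Subrepresentation ρ := ⟨U0, hU⟩
    obtain ⟨W, hW⟩ := exists_isCompl U
    have hsup : U0 ⊔ W.toSubmodule = ⊤ := by
      have := congrArg Subrepresentation.toSubmodule hW.sup_eq_top
      exact this
    have hinf : U0 ⊓ W.toSubmodule = ⊥ := by
      have := congrArg Subrepresentation.toSubmodule hW.inf_eq_bot
      exact this
    have hW2 : W.toSubmodule ≠ ⊤ := by
      intro h
      rw [h, inf_top_eq] at hinf
      exact hU1 hinf
    have key : ∀ W : Subrepresentation ρ, W.toSubmodule ≠ ⊤ → ∀ v ∈ W.toSubmodule, ρ g v = v := by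
      intro W hW v hv
      have hlt : finrank F W.toSubmodule < n := by
        rw [← hn]; exact Submodule.finrank_lt hW
      have h1 := ih _ hlt hP W.toRepresentation rfl g (derivedSeries_antitone P
        (Nat.add_le_add_right (Nat.log_mono_right hlt.le) 1) hg)
      have h2 := DFunLike.congr_fun h1 ⟨v, hv⟩
      exact congrArg Subtype.val h2
    ext v
    have hv : v ∈ U0 ⊔ W.toSubmodule := by rw [hsup]; trivial
    obtain ⟨a, ha, b, hb, rfl⟩ := Submodule.mem_sup.1 hv
    rw [map_add, key U hU2 a ha, key W hW2 b hb]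
    rfl
  -- irreducible case
  push Not at hred
  have hirr : ∀ U : Submodule F V, (∀ g, ∀ v ∈ U, ρ g v ∈ U) → U ≠ ⊥ → U = ⊤ := hred
  rcases subsingleton_or_nontrivial V with hs | hnt
  · ext v; exact Subsingleton.elim _ _
  by_cases hab : ∀ g h, ρ g * ρ h = ρ h * ρ g
  · have h1 : derivedSeries P (Nat.log p n + 1) ≤ commutator P := by
      rw [← derivedSeries_one]
      exact derivedSeries_antitone P (by omega)
    have h2 : commutator P ≤ (MonoidHom.ker (ρ.asGroupHom)) := by
      rw [commutator_def, Subgroup.commutator_le]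
      intro a _ b _
      rw [MonoidHom.mem_ker, map_commutatorElement, commutatorElement_eq_one_iff_mul_comm]
      ext1
      exact hab a b
    have h3 := h2 (h1 hg)
    rw [MonoidHom.mem_ker] at h3
    exact congrArg Units.val h3
  · push Not at hab
    obtain ⟨x, ⟨g0, hg0⟩, hx⟩ := exists_second_center hP ρ.asGroupHom (by
      obtain ⟨a, b, hab⟩ := hab
      exact ⟨a, b, fun h => hab (congrArg Units.val h)⟩)
    -- Schur
    have hschur : ∀ T : End F V, (∀ g, T * ρ g = ρ g * T) → ∃ μ : F, ∀ v, T v = μ • v := by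
      intro T hT
      obtain ⟨μ, hμ⟩ := Module.End.exists_eigenvalue T
      refine ⟨μ, ?_⟩
      have h1 : T.eigenspace μ = ⊤ := by
        apply hirr
        · intro g v hv
          rw [Module.End.mem_eigenspace_iff] at hv ⊢
          have := DFunLike.congr_fun (hT g) v
          simp only [Module.End.mul_apply] at this
          rw [this, hv, map_smul]
        · exact hμ
      intro v
      have : v ∈ T.eigenspace μ := by rw [h1]; trivial
      exact Module.End.mem_eigenspace_iff.1 this
    have hinv : ∀ g : P, ∀ v, ρ g⁻¹ (ρ g v) = v := by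
      intro g v
      rw [← Module.End.mul_apply, ← map_mul, inv_mul_cancel, map_one]; rfl
    have hinv' : ∀ g : P, ∀ v, ρ g (ρ g⁻¹ v) = v := by
      intro g v
      rw [← Module.End.mul_apply, ← map_mul, mul_inv_cancel, map_one]; rfl
    have hc : ∀ g : P, ∃ c : F, ∀ v, ρ g (ρ x v) = c • ρ x (ρ g v) := by
      intro g
      obtain ⟨c, hc⟩ := hschur (ρ ⁅g, x⁆) (fun h => congrArg Units.val (hx g h))
      refine ⟨c, fun v => ?_⟩
      rw [← hc, commutatorElement_def]
      simp only [map_mul, Module.End.mul_apply, hinv]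
    choose c hc using hc
    obtain ⟨v0, hv0⟩ := exists_ne (0 : V)
    have hinj : ∀ g : P, ∀ v, ρ g v = 0 → v = 0 := by
      intro g v hv
      have := hinv g v
      rw [hv, map_zero] at this
      exact this.symm
    have hcmul : ∀ a b, c (a * b) = c a * c b := by
      intro a b
      have h1 := hc (a * b) v0
      simp only [map_mul, Module.End.mul_apply] at h1
      rw [hc b, map_smul, hc a, smul_smul] at h1
      have h2 : (c b * c a - c (a * b)) • ρ x (ρ a (ρ b v0)) = 0 := by
        rw [sub_smul, h1, sub_self]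
      rcases smul_eq_zero.1 h2 with h3 | h3
      · rw [sub_eq_zero] at h3
        rw [← h3, mul_comm]
      · exact absurd (hinj b _ (hinj a _ (hinj x _ h3))) hv0
    have hc1 : c 1 = 1 := by
      have h1 := hc 1 v0
      simp only [map_one, Module.End.one_apply] at h1
      have h2 : (1 - c 1) • ρ x v0 = 0 := by
        rw [sub_smul, one_smul, ← h1, sub_self]
      rcases smul_eq_zero.1 h2 with h3 | h3
      · exact (sub_eq_zero.1 h3).symm
      · exact absurd (hinj x _ h3) hv0
    let cH : P →* F := { toFun := c, map_one' := hc1, map_mul' := hcmul }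
    -- the subgroup `M`
    let M : Subgroup P := cH.toHomUnits.ker
    have hM : ∀ m : P, m ∈ M ↔ c m = 1 := by
      intro m
      rw [MonoidHom.mem_ker, Units.ext_iff]
      rfl
    have hcomm : commutator P ≤ M := by
      rw [commutator_def, Subgroup.commutator_le]
      intro a _ b _
      rw [MonoidHom.mem_ker, map_commutatorElement, commutatorElement_eq_one_iff_mul_comm]
      exact mul_comm _ _
    have hg0c : c g0 ≠ 1 := by
      intro h
      apply hg0
      ext v
      have := hc g0 v
      rw [h, one_smul] at this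
      exact this
    -- an element with `c g1` of order `p`
    obtain ⟨g1, hg1, hg1p⟩ : ∃ g1, c g1 ≠ 1 ∧ (c g1) ^ p = 1 := by
      obtain ⟨k, hk⟩ := (IsPGroup.iff_orderOf.1 hP) g0
      have h1 : (c g0) ^ p ^ k = 1 := by
        have : cH (g0 ^ p ^ k) = (cH g0) ^ p ^ k := map_pow _ _ _
        rw [← hk, pow_orderOf_eq_one, map_one] at this
        rw [← hk]; exact this.symm
      have hex : ∃ k, (c g0) ^ p ^ k = 1 := ⟨k, h1⟩
      have h2 := Nat.find_spec hex
      set j := Nat.find hex with hj
      have hj0 : j ≠ 0 := by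
        intro h
        rw [h, pow_zero, pow_one] at h2
        exact hg0c h2
      refine ⟨g0 ^ p ^ (j - 1), ?_, ?_⟩
      · have : cH (g0 ^ p ^ (j - 1)) = (cH g0) ^ p ^ (j - 1) := map_pow _ _ _
        intro h
        exact Nat.find_min hex (m := j - 1) (by omega) (this.symm.trans h)
      · have : cH (g0 ^ p ^ (j - 1)) = (cH g0) ^ p ^ (j - 1) := map_pow _ _ _
        show (cH (g0 ^ p ^ (j - 1))) ^ p = 1
        rw [this, ← pow_mul, ← pow_succ]
        have h5 : j - 1 + 1 = j := by omega
        rw [h5]; exact h2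
    have hg1o : orderOf (c g1) = p := orderOf_eq_prime hg1p hg1
    -- the action on eigenspaces
    let T : End F V := ρ x
    have hmap : ∀ (g : P) (μ : F) (v : V), T v = μ • v → T (ρ g v) = ((c g)⁻¹ * μ) • ρ g v := by
      intro g μ v hv
      have h1 := hc g v
      have hcg : c g ≠ 0 := by
        intro h
        have h5 : c (g * g⁻¹) = c g * c g⁻¹ := hcmul _ _
        rw [mul_inv_cancel, hc1, h, zero_mul] at h5
        exact one_ne_zero h5
      have h2 : T (ρ g v) = (c g)⁻¹ • (ρ g (ρ x v)) := by
        rw [h1, smul_smul, inv_mul_cancel₀ hcg, one_smul]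
      rw [h2]
      have hv' : ρ x v = μ • v := hv
      rw [hv', map_smul, smul_smul]
    -- dimension bound
    have hdim : ∀ μ : F, p * finrank F (T.eigenspace μ) ≤ n := by
      intro μ
      by_cases hE : T.eigenspace μ = ⊥
      · rw [hE, finrank_bot, mul_zero]; exact Nat.zero_le _
      obtain ⟨w, hw, hw0⟩ := Submodule.exists_mem_ne_zero_of_ne_bot hE
      rw [Module.End.mem_eigenspace_iff] at hw
      have hμ0 : μ ≠ 0 := by
        rintro rfl
        rw [zero_smul] at hw
        exact hw0 (hinj x w hw)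
      let L : (Fin p → T.eigenspace μ) →ₗ[F] V :=
        ∑ i : Fin p, (ρ (g1 ^ (i : ℕ))) ∘ₗ (T.eigenspace μ).subtype ∘ₗ (LinearMap.proj i)
      have hL : ∀ v, L v = ∑ i : Fin p, ρ (g1 ^ (i : ℕ)) (v i : V) := by
        intro v
        simp [L, LinearMap.sum_apply]
      have hLinj : Function.Injective L := by
        rw [← LinearMap.ker_eq_bot, LinearMap.ker_eq_bot']
        intro v hv
        rw [hL] at hv
        have hzero := eq_zero_of_sum_eigen (T := T) (fun i : Fin p => (c (g1 ^ (i : ℕ)))⁻¹ * μ) ?_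
          (fun i => ρ (g1 ^ (i : ℕ)) (v i : V)) ?_ hv
        · funext i
          exact Subtype.ext (hinj _ _ (hzero i))
        · intro i j hij
          have h1 : (c (g1 ^ (i : ℕ)))⁻¹ = (c (g1 ^ (j : ℕ)))⁻¹ := mul_right_cancel₀ hμ0 hij
          have h2 : c (g1 ^ (i : ℕ)) = c (g1 ^ (j : ℕ)) := inv_injective h1
          have e1 : cH (g1 ^ (i : ℕ)) = (cH g1) ^ (i : ℕ) := map_pow _ _ _
          have e2 : cH (g1 ^ (j : ℕ)) = (cH g1) ^ (j : ℕ) := map_pow _ _ _
          have h3 : (c g1) ^ (i : ℕ) = (c g1) ^ (j : ℕ) := e1.symm.trans (h2.trans e2)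
          have h4 : IsPrimitiveRoot (c g1) p := hg1o ▸ IsPrimitiveRoot.orderOf (c g1)
          exact Fin.ext (h4.pow_inj i.2 j.2 h3)
        · intro i
          exact hmap _ _ _ (Module.End.mem_eigenspace_iff.1 (v i).2)
      have h1 := LinearMap.finrank_le_finrank_of_injective hLinj
      rw [Module.finrank_pi_fintype] at h1
      rw [← hn]
      simpa using h1
    -- `M^(log n)` acts trivially on each eigenspace
    have hMtriv : ∀ m ∈ derivedSeries M (Nat.log p n), ∀ μ : F, ∀ v ∈ T.eigenspace μ, ρ (m : P) v = v := by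
      intro m hm μ v hv
      by_cases hE : T.eigenspace μ = ⊥
      · rw [hE, Submodule.mem_bot] at hv
        rw [hv, map_zero]
      let σ0 : Representation F M V := ρ.comp M.subtype
      let U : Subrepresentation σ0 := ⟨T.eigenspace μ, by
        intro m v hv
        rw [Module.End.mem_eigenspace_iff] at hv ⊢
        have h1 := hmap (m : P) μ v hv
        rw [(hM _).1 m.2, inv_one, one_mul] at h1
        exact h1⟩
      have hd1 : 1 ≤ finrank F (T.eigenspace μ) := by
        rw [Nat.one_le_iff_ne_zero]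
        intro h
        exact hE (Submodule.finrank_eq_zero.1 h)
      have hd := hdim μ
      have hlt : finrank F (T.eigenspace μ) < n := by
        have := hp.out.two_le
        nlinarith
      have hlog : Nat.log p (finrank F (T.eigenspace μ)) + 1 ≤ Nat.log p n := by
        have h1 : Nat.log p (finrank F (T.eigenspace μ) * p) = Nat.log p (finrank F (T.eigenspace μ)) + 1 :=
          Nat.log_mul_base hp.out.one_lt (by omega)
        rw [← h1]
        apply Nat.log_mono_right
        rw [mul_comm]; exact hd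
      have h1 := ih _ hlt (hP.to_subgroup M) U.toRepresentation rfl m (derivedSeries_antitone M hlog hm)
      have h2 := DFunLike.congr_fun h1 ⟨v, hv⟩
      exact congrArg Subtype.val h2
    have htop : (⨆ μ : F, T.eigenspace μ) = ⊤ := by
      apply hirr
      · intro g v hv
        induction hv using Submodule.iSup_induction' with
        | mem μ v hv =>
          apply Submodule.mem_iSup_of_mem ((c g)⁻¹ * μ)
          rw [Module.End.mem_eigenspace_iff] at hv ⊢
          exact hmap g μ v hv
        | zero => rw [map_zero]; exact Submodule.zero_mem _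
        | add a b _ _ ha hb => rw [map_add]; exact Submodule.add_mem _ ha hb
      · intro h
        obtain ⟨μ, hμ⟩ := Module.End.exists_eigenvalue T
        apply hμ
        rw [eq_bot_iff, ← h]
        exact le_iSup (fun μ => T.eigenspace μ) μ
    obtain ⟨m, hm, rfl⟩ := WreathDer67.derivedSeries_succ_le hcomm _ hg
    ext v
    have hv : v ∈ ⨆ μ : F, T.eigenspace μ := by rw [htop]; trivial
    show ρ (m : P) v = v
    induction hv using Submodule.iSup_induction' with
    | mem μ v hv => exact hMtriv m hm μ v hv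
    | zero => rw [map_zero]
    | add a b _ _ ha hb => rw [map_add, ha, hb]

end Cfsg.Agent.Lib.LinPGroup67
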