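import Mathlib
import Cfsg.Agent.Lib.H70Frattini

/-!
(helper67) Finite `p`-groups acting linearly in characteristic `p`: fixed vectors and derived length.
-/

set_option autoImplicit false

open scoped commutatorElement
open Module

namespace Cfsg.Agent.Lib.UnipP67

open Cfsg.Agent.Lib

universe u v w

variable {F : Type w} [Field F] {V : Type v} [AddCommGroup V] [Module F V]

theorem act_mul {P : Type*} [Group P] (ρ : Representation F P V) (a b : P) (v : V) : ρ (a * b) v = ρ a (ρ b v) := by
  rw [map_mul]; rfl

theorem act_inv {P : Type*} [Group P] (ρ : Representation F P V) (a : P) (v : V) : ρ a⁻¹ (ρ a v) = v := by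
  rw [← act_mul, inv_mul_cancel, map_one]; rfl

/-- A finite `p`-group in characteristic `p` has a fixed vector modulo any proper invariant subspace. -/
theorem exists_fixed_mod (p : ℕ) [hp : Fact p.Prime] (hpF : (p : F) = 0) (n : ℕ) :
    ∀ {P : Type u} [Group P] [Finite P], IsPGroup p P → Nat.card P = n → ∀ (ρ : Representation F P V)
      (W : Submodule F V), (∀ g, ∀ v ∈ W, ρ g v ∈ W) → W ≠ ⊤ → ∃ v, v ∉ W ∧ ∀ g, ρ g v - v ∈ W := by
  induction n using Nat.strong_induction_on with
  | _ n ih =>
  intro P _ _ hP hn ρ W hW hWtop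
  rcases subsingleton_or_nontrivial P with hs | hnt
  · obtain ⟨v, -, hv⟩ := SetLike.exists_of_lt (lt_top_iff_ne_top.2 hWtop)
    refine ⟨v, hv, fun g => ?_⟩
    rw [Subsingleton.elim g 1, map_one, Module.End.one_apply, sub_self]
    exact W.zero_mem
  obtain ⟨M, hM⟩ : ∃ M : Subgroup P, IsCoatom M := by
    obtain ⟨M, hM, -⟩ := (eq_top_or_exists_le_coatom (⊥ : Subgroup P)).resolve_left bot_ne_top
    exact ⟨M, hM⟩
  have hnil : Group.IsNilpotent P := hP.isNilpotent
  have hMn : M.Normal := Subgroup.NormalizerCondition.normal_of_coatom M Group.normalizerCondition_of_isNilpotent hM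
  have hpow : ∀ x : P, x ^ p ∈ M := fun x => (frattini_le_coatom hM) (H70Frattini.pow_mem_frattini hP x)
  have hcard : Nat.card M < n := by
    rw [← hn]
    refine lt_of_le_of_ne (Subgroup.card_le_card_group M) ?_
    intro h
    exact hM.1 (Subgroup.eq_top_of_card_eq M h)
  obtain ⟨u0, hu0, hu0'⟩ := ih _ hcard (hP.to_subgroup M) rfl (ρ.comp M.subtype) W (fun g v hv => hW _ v hv) hWtop
  obtain ⟨g, -, hg⟩ := SetLike.exists_of_lt (lt_top_iff_ne_top.2 hM.1)
  have hchar : CharP (Module.End F V) p := by
    have h1 : CharP F p := by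
      have := CharP.exists F
      obtain ⟨q, hq⟩ := this
      have h2 : q ∣ p := (CharP.cast_eq_zero_iff F q p).1 hpF
      rcases (Nat.dvd_prime hp.out).1 h2 with h3 | h3
      · exfalso
        rw [h3] at hq
        have h5 : ((1 : ℕ) : F) = 0 := (CharP.cast_eq_zero_iff F 1 1).2 dvd_rfl
        rw [Nat.cast_one] at h5
        exact one_ne_zero h5
      · rw [← h3]; exact hq
    have hnt : Nontrivial V := by
      refine ⟨u0, 0, ?_⟩
      rintro rfl
      exact hu0 W.zero_mem
    exact charP_of_injective_algebraMap (FaithfulSMul.algebraMap_injective F (Module.End F V)) p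
  let D : Module.End F V := ρ g - 1
  have hDp : D ^ p = ρ (g ^ p) - 1 := by
    have h1 : Commute (ρ g) (1 : Module.End F V) := Commute.one_right _
    have h2 := sub_pow_char_of_commute (p := p) h1
    rw [h2, one_pow, map_pow]
  have hex : ∃ k, (D ^ k) u0 ∈ W := by
    refine ⟨p, ?_⟩
    rw [hDp]
    exact hu0' ⟨g ^ p, hpow g⟩
  classical
  have hk := Nat.find_spec hex
  set k := Nat.find hex with hkdef
  have hk0 : k ≠ 0 := by
    intro h
    rw [h, pow_zero] at hk
    exact hu0 hk
  have hmin := Nat.find_min hex (m := k - 1) (by omega)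
  -- all `D ^ j u0` are fixed by `M` mod `W`
  have hfix : ∀ j, ∀ m ∈ M, ρ m ((D ^ j) u0) - (D ^ j) u0 ∈ W := by
    intro j
    induction j with
    | zero =>
      intro m hm
      rw [pow_zero]
      exact hu0' ⟨m, hm⟩
    | succ j ihj =>
      intro m hm
      rw [pow_succ', Module.End.mul_apply]
      set y := (D ^ j) u0
      have e1 : D y = ρ g y - y := rfl
      rw [e1, map_sub]
      have e2 : ρ m (ρ g y) - ρ g y ∈ W := by
        have h1 : g⁻¹ * m * g ∈ M := by
          have := hMn.conj_mem m hm g⁻¹
          simpa using this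
        have h2 := hW g _ (ihj _ h1)
        have h3 : ρ g (ρ (g⁻¹ * m * g) y - y) = ρ m (ρ g y) - ρ g y := by
          rw [map_sub, ← act_mul ρ g, ← act_mul ρ m]
          have : g * (g⁻¹ * m * g) = m * g := by group
          rw [this]
        rwa [h3] at h2
      have e3 := ihj m hm
      have e4 : ρ m (ρ g y) - ρ m y - (ρ g y - y) = (ρ m (ρ g y) - ρ g y) - (ρ m y - y) := by abel
      rw [e4]
      exact W.sub_mem e2 e3
  refine ⟨(D ^ (k - 1)) u0, hmin, ?_⟩
  set u := (D ^ (k - 1)) u0 with hu
  have hgu : ρ g u - u ∈ W := by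
    have h1 : ρ g u - u = (D ^ k) u0 := by
      have : D ^ k = D * D ^ (k - 1) := by
        rw [← pow_succ']; congr 1; omega
      rw [this, Module.End.mul_apply]; rfl
    rw [h1]; exact hk
  let S : Subgroup P :=
    { carrier := {h | ρ h u - u ∈ W}
      one_mem' := by
        show ρ 1 u - u ∈ W
        rw [map_one, Module.End.one_apply, sub_self]; exact W.zero_mem
      mul_mem' := by
        intro a b ha hb
        show ρ (a * b) u - u ∈ W
        have h1 : ρ (a * b) u - u = ρ a (ρ b u - u) + (ρ a u - u) := by
          rw [map_mul, Module.End.mul_apply, map_sub]; abel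
        rw [h1]
        exact W.add_mem (hW a _ hb) ha
      inv_mem' := by
        intro a ha
        show ρ a⁻¹ u - u ∈ W
        have h1 : ρ a⁻¹ u - u = -(ρ a⁻¹ (ρ a u - u)) := by
          rw [map_sub, act_inv]; abel
        rw [h1]
        exact W.neg_mem (hW _ _ ha) }
  have hMS : M ≤ S := fun m hm => hfix _ m hm
  have hStop : S = ⊤ := by
    rcases hM.le_iff.1 hMS with h1 | h1
    · exact h1
    · exfalso
      have : g ∈ S := hgu
      rw [h1] at this
      exact hg this
  intro h
  have : h ∈ S := by rw [hStop]; trivial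
  exact this

section
variable {P : Type u} [Group P] (ρ : Representation F P V)

/-- the upper fixed series. -/
def fixSeries : ℕ → Submodule F V
  | 0 => ⊥
  | i + 1 =>
    { carrier := {v | ∀ g, ρ g v - v ∈ fixSeries i}
      zero_mem' := fun g => by rw [map_zero, sub_self]; exact Submodule.zero_mem _
      add_mem' := by
        intro a b ha hb g
        have : ρ g (a + b) - (a + b) = (ρ g a - a) + (ρ g b - b) := by rw [map_add]; abel
        rw [this]
        exact Submodule.add_mem _ (ha g) (hb g)
      smul_mem' := by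
        intro c a ha g
        have : ρ g (c • a) - c • a = c • (ρ g a - a) := by rw [map_smul, smul_sub]
        rw [this]
        exact Submodule.smul_mem _ c (ha g) }

theorem mem_fixSeries_succ {i : ℕ} {v : V} : v ∈ fixSeries ρ (i + 1) ↔ ∀ g, ρ g v - v ∈ fixSeries ρ i := Iff.rfl

theorem fixSeries_mono_succ (i : ℕ) : fixSeries ρ i ≤ fixSeries ρ (i + 1) := by
  induction i with
  | zero => exact bot_le
  | succ i ih => intro v hv g; exact ih (hv g)

theorem fixSeries_mono : Monotone (fixSeries ρ) := monotone_nat_of_le_succ (fixSeries_mono_succ ρ)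

theorem fixSeries_invariant (i : ℕ) (g : P) {v : V} (hv : v ∈ fixSeries ρ i) : ρ g v ∈ fixSeries ρ i := by
  have h1 : ρ g v - v ∈ fixSeries ρ i := (fixSeries_mono_succ ρ i hv) g
  have h2 := Submodule.add_mem _ h1 hv
  rwa [sub_add_cancel] at h2

theorem fixSeries_eq_top [Finite P] [FiniteDimensional F V] (p : ℕ) [hp : Fact p.Prime] (hpF : (p : F) = 0) (hP : IsPGroup p P) :
    fixSeries ρ (finrank F V) = ⊤ := by
  have key : ∀ i, fixSeries ρ i = ⊤ ∨ i ≤ finrank F (fixSeries ρ i) := by
    intro i
    induction i with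
    | zero => exact Or.inr (Nat.zero_le _)
    | succ i ih =>
      rcases ih with h | h
      · left
        rw [eq_top_iff, ← h]
        exact fixSeries_mono_succ ρ i
      · by_cases htop : fixSeries ρ i = ⊤
        · left
          rw [eq_top_iff, ← htop]
          exact fixSeries_mono_succ ρ i
        · right
          obtain ⟨v, hv, hv'⟩ := exists_fixed_mod p hpF _ hP rfl ρ (fixSeries ρ i)
            (fun g v hv => fixSeries_invariant ρ i g hv) htop
          have hlt : fixSeries ρ i < fixSeries ρ (i + 1) := by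
            refine lt_of_le_of_ne (fixSeries_mono_succ ρ i) ?_
            intro h1
            apply hv
            rw [h1]; exact hv'
          have := Submodule.finrank_lt_finrank_of_lt hlt
          omega
  rcases key (finrank F V) with h | h
  · exact h
  · exact Submodule.eq_top_of_finrank_eq (le_antisymm (Submodule.finrank_le _) h)

/-- elements shifting the series by `k`. -/
def shift (k : ℕ) : Subgroup P where
  carrier := {g | ∀ i, ∀ v ∈ fixSeries ρ i, ρ g v - v ∈ fixSeries ρ (i - k)}
  one_mem' := by
    intro i v _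
    rw [map_one, Module.End.one_apply, sub_self]
    exact Submodule.zero_mem _
  mul_mem' := by
    intro a b ha hb i v hv
    have h1 : ρ (a * b) v - v = ρ a (ρ b v - v) + (ρ a v - v) := by
      rw [map_mul, Module.End.mul_apply, map_sub]; abel
    rw [h1]
    exact Submodule.add_mem _ (fixSeries_invariant ρ _ a (hb i v hv)) (ha i v hv)
  inv_mem' := by
    intro a ha i v hv
    have h1 : ρ a⁻¹ v - v = -(ρ a⁻¹ (ρ a v - v)) := by
      rw [map_sub, ← Module.End.mul_apply, ← map_mul, inv_mul_cancel, map_one, Module.End.one_apply]; abel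
    rw [h1]
    exact Submodule.neg_mem _ (fixSeries_invariant ρ _ _ (ha i v hv))

theorem derivedSeries_le_shift (j : ℕ) : derivedSeries P j ≤ shift ρ (2 ^ j) := by
  induction j with
  | zero =>
    intro g _ i v hv
    cases i with
    | zero =>
      have : v = 0 := (Submodule.mem_bot F).1 hv
      rw [this, map_zero, sub_self]; exact Submodule.zero_mem _
    | succ i => exact hv g
  | succ j ih =>
    rw [derivedSeries_succ, Subgroup.commutator_le]
    intro g hg h hh i v hv
    have hg' := ih hg
    have hh' := ih hh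
    set w := ρ (g⁻¹ * h⁻¹) v with hw
    have hwi : w ∈ fixSeries ρ i := fixSeries_invariant ρ i _ hv
    have hv' : v = ρ (h * g) w := by
      rw [hw, ← Module.End.mul_apply, ← map_mul]
      have : h * g * (g⁻¹ * h⁻¹) = 1 := by group
      rw [this, map_one]; rfl
    have hcv : ρ ⁅g, h⁆ v = ρ (g * h) w := by
      rw [hw, ← Module.End.mul_apply, ← map_mul, commutatorElement_def]
      congr 2
      group
    have key : ρ ⁅g, h⁆ v - v = (ρ g (ρ h w - w) - (ρ h w - w)) - (ρ h (ρ g w - w) - (ρ g w - w)) := by
      rw [hcv, hv', map_mul, map_mul, Module.End.mul_apply, Module.End.mul_apply, map_sub, map_sub]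
      abel
    rw [key]
    have e : i - 2 ^ (j + 1) = i - 2 ^ j - 2 ^ j := by rw [pow_succ]; omega
    rw [e]
    exact Submodule.sub_mem _ (hg' _ _ (hh' _ _ hwi)) (hh' _ _ (hg' _ _ hwi))

end

/-- a finite `p`-group acting in characteristic `p` in dimension less than `2 ^ k`: `P^(k)` acts trivially. -/
theorem derivedSeries_trivial {P : Type u} [Group P] [Finite P] [FiniteDimensional F V] (ρ : Representation F P V)
    (p : ℕ) [hp : Fact p.Prime] (hpF : (p : F) = 0) (hP : IsPGroup p P) {k : ℕ} (hk : finrank F V ≤ 2 ^ k)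
    {g : P} (hg : g ∈ derivedSeries P k) : ρ g = 1 := by
  have h1 := derivedSeries_le_shift ρ k hg
  ext v
  have h2 := h1 (finrank F V) v (by rw [fixSeries_eq_top ρ p hpF hP]; trivial)
  have h3 : finrank F V - 2 ^ k = 0 := by omega
  rw [h3] at h2
  have h4 : ρ g v - v = 0 := (Submodule.mem_bot F).1 h2
  exact sub_eq_zero.1 h4

end Cfsg.Agent.Lib.UnipP67
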