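import Mathlib
import Cfsg.Agent.Lib.LinPGroup67
import Cfsg.Agent.Lib.UnipP67

/-!
(helper67) Derived length of finite `p`-subgroups of `GL(n, F)`.
-/

set_option autoImplicit false

open scoped commutatorElement
open Module

namespace Cfsg.Agent.Lib.GLDer67

open Cfsg.Agent.Lib

universe u v w

/-- the representation given by a homomorphism to `GL(n, F)`. -/
noncomputable def glRep {F : Type w} [Field F] {n : ℕ} {P : Type u} [Group P]
    (ρ : P →* Matrix.GeneralLinearGroup (Fin n) F) : Representation F P (Fin n → F) :=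
  (Units.coeHom _).comp ((Matrix.GeneralLinearGroup.toLin (n := Fin n) (R := F)).toMonoidHom.comp ρ)

theorem glRep_eq_one {F : Type w} [Field F] {n : ℕ} {P : Type u} [Group P]
    {ρ : P →* Matrix.GeneralLinearGroup (Fin n) F} {g : P} (h : glRep ρ g = 1) : ρ g = 1 := by
  have h1 : (Matrix.GeneralLinearGroup.toLin (n := Fin n) (R := F)) (ρ g) = 1 := Units.ext h
  exact (MulEquiv.map_eq_one_iff _).1 h1

/-- coprime characteristic: `P^(log_p n + 1)` is in the kernel. -/
theorem ker_of_coprime {F : Type w} [Field F] {n : ℕ} {P : Type u} [Group P] [Finite P] {p : ℕ} [hp : Fact p.Prime]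
    (hP : IsPGroup p P) (hpF : (p : F) ≠ 0) (ρ : P →* Matrix.GeneralLinearGroup (Fin n) F) {g : P}
    (hg : g ∈ derivedSeries P (Nat.log p n + 1)) : ρ g = 1 := by
  let K := AlgebraicClosure F
  have hinj : Function.Injective (algebraMap F K) := (algebraMap F K).injective
  let ρ' : P →* Matrix.GeneralLinearGroup (Fin n) K := (Matrix.GeneralLinearGroup.map (algebraMap F K)).comp ρ
  have hpK : (p : K) ≠ 0 := by
    intro h
    apply hpF
    apply hinj
    rw [map_natCast, map_zero]; exact h
  have h1 := LinPGroup67.thmA (F := K) p hpK n hP (glRep ρ') (by simp) g hg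
  have h2 : ρ' g = 1 := glRep_eq_one h1
  have h3 : Matrix.GeneralLinearGroup.map (algebraMap F K) (ρ g) = 1 := h2
  ext i j
  apply hinj
  have h4 := congrArg (fun M : Matrix.GeneralLinearGroup (Fin n) K => (M : Matrix (Fin n) (Fin n) K) i j) h3
  have h5 : algebraMap F K ((ρ g : Matrix (Fin n) (Fin n) F) i j) = (1 : Matrix (Fin n) (Fin n) K) i j := h4
  rw [h5]
  by_cases hij : i = j
  · subst hij; simp
  · simp [Matrix.one_apply_ne hij]

/-- defining characteristic. -/
theorem ker_of_char {F : Type w} [Field F] {n : ℕ} {P : Type u} [Group P] [Finite P] {p : ℕ} [hp : Fact p.Prime]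
    (hP : IsPGroup p P) (hpF : (p : F) = 0) (ρ : P →* Matrix.GeneralLinearGroup (Fin n) F) {g : P} {k : ℕ} (hk : n ≤ 2 ^ k)
    (hg : g ∈ derivedSeries P k) : ρ g = 1 := by
  apply glRep_eq_one
  exact UnipP67.derivedSeries_trivial (glRep ρ) p hpF hP (by simpa using hk) hg

end Cfsg.Agent.Lib.GLDer67
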