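import Mathlib
import Cfsg.Agent.Lib.GLDer67

/-!
(helper67) Derived length of finite `p`-subgroups of `GL(n, q)`, `p ∤ q`, with the order of `q` mod `p`.
-/

set_option autoImplicit false

open scoped commutatorElement
open Module

namespace Cfsg.Agent.Lib.GLCross67

open Cfsg.Agent.Lib

universe u v w

/-- coprime characteristic: `P^(log_p n + 1)` acts trivially. -/
theorem trivial_of_coprime {F : Type w} [Field F] {P : Type u} [Group P] [Finite P] {p : ℕ} [hp : Fact p.Prime]
    (hP : IsPGroup p P) (hpF : (p : F) ≠ 0) {V : Type v} [AddCommGroup V] [Module F V]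
    [FiniteDimensional F V] (ρ : Representation F P V) {g : P}
    (hg : g ∈ derivedSeries P (Nat.log p (finrank F V) + 1)) : ρ g = 1 := by
  let b := finBasis F V
  let ρ' : P →* Matrix.GeneralLinearGroup (Fin (finrank F V)) F :=
    (Units.map (LinearMap.toMatrixAlgEquiv b : End F V →* Matrix (Fin (finrank F V)) (Fin (finrank F V)) F)).comp ρ.asGroupHom
  have h1 := GLDer67.ker_of_coprime hP hpF ρ' hg
  have h2 : LinearMap.toMatrixAlgEquiv b (ρ g) = 1 := congrArg Units.val h1
  exact (LinearMap.toMatrixAlgEquiv b).injective (h2.trans (map_one _).symm)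

theorem orderOf_card_pos {p : ℕ} [hp : Fact p.Prime] {q : ℕ} (hpq : ¬ p ∣ q) : 0 < orderOf (q : ZMod p) := by
  have hu : IsUnit (q : ZMod p) := by
    rw [isUnit_iff_ne_zero, Ne, ZMod.natCast_eq_zero_iff]
    exact hpq
  obtain ⟨u, hu⟩ := hu
  rw [← hu, orderOf_units]
  exact orderOf_pos u

theorem trivial_cross (p : ℕ) [hp : Fact p.Prime] {F : Type w} [Field F] [Finite F] (hpq : ¬ p ∣ Nat.card F) (n : ℕ) :
    ∀ {P : Type u} [Group P] [Finite P], IsPGroup p P → ∀ {V : Type v} [AddCommGroup V] [Module F V]
    [FiniteDimensional F V] (ρ : Representation F P V), finrank F V = n →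
    ∀ g ∈ derivedSeries P (Nat.log p (n / orderOf (Nat.card F : ZMod p)) + 1), ρ g = 1 := by
  classical
  have hpF : (p : F) ≠ 0 := by
    intro h
    apply hpq
    have := Fintype.ofFinite F
    obtain ⟨r, hr⟩ := CharP.exists F
    have h1 : r ∣ p := (CharP.cast_eq_zero_iff F r p).1 h
    have hr1 : r.Prime := (CharP.char_is_prime F r)
    have h2 : r = p := (Nat.prime_dvd_prime_iff_eq hr1 hp.out).1 h1
    subst h2
    obtain ⟨k, _, hk⟩ := FiniteField.card F r
    rw [Nat.card_eq_fintype_card, hk]
    exact dvd_pow_self _ k.ne_zero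
  induction n using Nat.strong_induction_on with
  | _ n ih =>
  intro P _ _ hP V _ _ _ ρ hn g hg
  by_cases hred : ∃ U : Submodule F V, (∀ g, ∀ v ∈ U, ρ g v ∈ U) ∧ U ≠ ⊥ ∧ U ≠ ⊤
  · -- reducible case
    obtain ⟨U0, hU, hU1, hU2⟩ := hred
    obtain ⟨k, hk⟩ := IsPGroup.iff_card.1 hP
    have hne : NeZero (Nat.card P : F) := ⟨by rw [hk]; push_cast; exact pow_ne_zero _ hpF⟩
    let U : Subrepresentation ρ := ⟨U0, hU⟩
    obtain ⟨W, hW⟩ := exists_isCompl U
    have hsup : U0 ⊔ W.toSubmodule = ⊤ := by
      have := congrArg Subrepresentation.toSubmodule hW.sup_eq_top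
      exact this
    have hinf : U0 ⊓ W.toSubmodule = ⊥ := by
      have := congrArg Subrepresentation.toSubmodule hW.inf_eq_bot
      exact this
    have hW2 : W.toSubmodule ≠ ⊤ := by
      intro h
      rw [h, inf_top_eq] at hinf
      exact hU1 hinf
    have key : ∀ W : Subrepresentation ρ, W.toSubmodule ≠ ⊤ → ∀ v ∈ W.toSubmodule, ρ g v = v := by
      intro W hW v hv
      have hlt : finrank F W.toSubmodule < n := by
        rw [← hn]; exact Submodule.finrank_lt hW
      have h1 := ih _ hlt hP W.toRepresentation rfl g (derivedSeries_antitone P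
        (Nat.add_le_add_right (Nat.log_mono_right (Nat.div_le_div_right hlt.le)) 1) hg)
      have h2 := DFunLike.congr_fun h1 ⟨v, hv⟩
      exact congrArg Subtype.val h2
    ext v
    have hv : v ∈ U0 ⊔ W.toSubmodule := by rw [hsup]; trivial
    obtain ⟨a, ha, b, hb, rfl⟩ := Submodule.mem_sup.1 hv
    rw [map_add, key U hU2 a ha, key W hW2 b hb]
    rfl
  -- irreducible case
  push Not at hred
  have hirr : ∀ U : Submodule F V, (∀ g, ∀ v ∈ U, ρ g v ∈ U) → U ≠ ⊥ → U = ⊤ := hred
  rcases subsingleton_or_nontrivial V with hs | hnt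
  · ext v; exact Subsingleton.elim _ _
  by_cases htriv : ∀ g, ρ g = 1
  · exact htriv g
  push Not at htriv
  obtain ⟨g0, hg0⟩ := htriv
  -- the ring of endomorphisms
  let K : Subalgebra F (End F V) := Subalgebra.centralizer F (Set.range ρ)
  have hKmem : ∀ T : End F V, T ∈ K ↔ ∀ g, ρ g * T = T * ρ g := by
    intro T
    rw [Subalgebra.mem_centralizer_iff]
    constructor
    · intro h g; exact h _ ⟨g, rfl⟩
    · rintro h _ ⟨g, rfl⟩; exact h g
  have hKinj : ∀ T : K, T ≠ 0 → ∀ v, (T : End F V) v = 0 → v = 0 := by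
    intro T hT v hv
    by_contra hv0
    apply hT
    apply Subtype.ext
    have h1 : LinearMap.ker (T : End F V) = ⊤ := by
      apply hirr
      · intro g v hv
        rw [LinearMap.mem_ker] at hv ⊢
        have h2 := DFunLike.congr_fun ((hKmem T).1 T.2 g) v
        rw [Module.End.mul_apply, Module.End.mul_apply, hv, map_zero] at h2
        exact h2.symm
      · intro h
        have : v ∈ LinearMap.ker (T : End F V) := hv
        rw [h] at this
        exact hv0 ((Submodule.mem_bot F).1 this)
    exact LinearMap.ker_eq_top.1 h1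
  have hVfin : Finite V := Module.finite_of_finite F
  have hEfin : Finite (End F V) := Module.finite_of_finite F
  have hdom : IsDomain K := by
    have hntK : Nontrivial K := inferInstance
    have hnz : NoZeroDivisors K := by
      refine ⟨fun {a b} hab => ?_⟩
      by_contra hcon
      push Not at hcon
      obtain ⟨v, hv⟩ := exists_ne (0 : V)
      apply hv
      apply hKinj b hcon.2
      apply hKinj a hcon.1
      have := congrArg (fun T : K => (T : End F V) v) hab
      exact this
    exact NoZeroDivisors.to_isDomain K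
  have hfield : IsField K := Finite.isDomain_to_isField K
  let _ : Field K := hfield.toField
  -- central element of order `p`
  obtain ⟨z, hz1, hzp, hzc⟩ : ∃ z : P, ρ z ≠ 1 ∧ (ρ z) ^ p = 1 ∧ ∀ g, ρ g * ρ z = ρ z * ρ g := by
    let f := ρ.asGroupHom
    let Q := f.range
    have hQp : IsPGroup p Q := hP.of_surjective f.rangeRestrict f.rangeRestrict_surjective
    have hQfin : Finite Q := Finite.of_surjective f.rangeRestrict f.rangeRestrict_surjective
    have hQnt : Nontrivial Q := by
      refine ⟨⟨⟨f g0, ⟨g0, rfl⟩⟩, 1, fun h => hg0 ?_⟩⟩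
      have := congrArg Subtype.val h
      exact congrArg Units.val this
    have hc := hQp.center_nontrivial
    have hcp : IsPGroup p (Subgroup.center Q) := hQp.to_subgroup _
    obtain ⟨k, hk⟩ := IsPGroup.iff_card.1 hcp
    have hk0 : k ≠ 0 := by
      rintro rfl
      rw [pow_zero] at hk
      have := Finite.one_lt_card_iff_nontrivial.2 hc
      omega
    obtain ⟨⟨⟨_, z, rfl⟩, hy⟩, hyo⟩ := exists_prime_orderOf_dvd_card' (G := Subgroup.center Q) p (by rw [hk]; exact dvd_pow_self _ hk0)
    refine ⟨z, ?_, ?_, ?_⟩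
    · intro h
      have : (⟨⟨f z, ⟨z, rfl⟩⟩, hy⟩ : Subgroup.center Q) = 1 := by
        apply Subtype.ext; apply Subtype.ext; exact Units.ext h
      rw [this, orderOf_one] at hyo
      exact hp.out.one_lt.ne hyo
    · have h1 := pow_orderOf_eq_one (⟨⟨f z, ⟨z, rfl⟩⟩, hy⟩ : Subgroup.center Q)
      rw [hyo] at h1
      have h2 := congrArg (fun x : Subgroup.center Q => ((x : Q) : (End F V)ˣ)) h1
      exact congrArg Units.val h2
    · intro g
      have h2 := Subgroup.mem_center_iff.1 hy (⟨f g, ⟨g, rfl⟩⟩ : Q)
      exact congrArg Units.val (congrArg Subtype.val h2)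
  let ζ : K := ⟨ρ z, (hKmem _).2 (hzc)⟩
  have hζ1 : ζ ≠ 1 := fun h => hz1 (congrArg Subtype.val h)
  have hζp : ζ ^ p = 1 := Subtype.ext hzp
  have hord : orderOf ζ = p := orderOf_eq_prime hζp hζ1
  have hdvd : p ∣ Nat.card K - 1 := by
    rw [← hord]
    have : Fintype K := Fintype.ofFinite K
    rw [Nat.card_eq_fintype_card]
    apply orderOf_dvd_of_pow_eq_one
    apply FiniteField.pow_card_sub_one_eq_one
    intro h0
    rw [h0, zero_pow hp.out.ne_zero] at hζp
    exact zero_ne_one hζp
  have hcardK : Nat.card K = Nat.card F ^ finrank F K := Module.natCard_eq_pow_finrank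
  have he : orderOf (Nat.card F : ZMod p) ∣ finrank F K := by
    rw [orderOf_dvd_iff_pow_eq_one]
    rw [← Nat.cast_pow, ← hcardK]
    have h1 : 1 ≤ Nat.card K := Nat.card_pos
    have h2 : ((Nat.card K - 1 : ℕ) : ZMod p) = 0 := (ZMod.natCast_eq_zero_iff _ _).2 hdvd
    rw [Nat.cast_sub h1, sub_eq_zero] at h2
    rw [h2, Nat.cast_one]
  have hfr : finrank F K * finrank K V = n := by rw [← hn]; exact Module.finrank_mul_finrank F K V
  have hfinK : FiniteDimensional K V := Module.Finite.of_restrictScalars_finite F K V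
  let σ : Representation K P V :=
    { toFun := fun g => 
        { toFun := ρ g
          map_add' := map_add _
          map_smul' := fun k v => DFunLike.congr_fun ((hKmem k).1 k.2 g) v }
      map_one' := by ext v; exact DFunLike.congr_fun (map_one ρ) v
      map_mul' := fun a b => by ext v; exact DFunLike.congr_fun (map_mul ρ a b) v }
  have hpK : (p : K) ≠ 0 := by
    intro h
    apply hpF
    have h1 : algebraMap F K (p : F) = 0 := by rw [map_natCast]; exact h
    exact (map_eq_zero_iff (algebraMap F K) (algebraMap F K).injective).1 h1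
  have hd1 : 0 < finrank F K := finrank_pos
  have he1 : orderOf (Nat.card F : ZMod p) ≤ finrank F K := Nat.le_of_dvd hd1 he
  have he0 : 0 < orderOf (Nat.card F : ZMod p) := orderOf_card_pos hpq
  have hle : finrank K V ≤ n / orderOf (Nat.card F : ZMod p) := by
    have h1 : finrank K V = n / finrank F K := by
      rw [← hfr, Nat.mul_div_cancel_left _ hd1]
    rw [h1]
    exact Nat.div_le_div_left he1 he0
  have h1 := trivial_of_coprime hP hpK σ (derivedSeries_antitone P
    (Nat.add_le_add_right (Nat.log_mono_right hle) 1) hg)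
  ext v
  exact DFunLike.congr_fun h1 v

section lower

open RegularWreathProduct

/-- the wreath product representation. -/
def wreathRep {F : Type w} [Field F] {D : Type u} [Group D] {Q : Type*} [Group Q] {V : Type v} [AddCommGroup V]
    [Module F V] (ρ : Representation F D V) : Representation F (D ≀ᵣ Q) (Q → V) where
  toFun w :=
    { toFun := fun f x => ρ (w.left x) (f (w.right⁻¹ * x))
      map_add' := fun f g => by funext x; simp
      map_smul' := fun c f => by funext x; simp }
  map_one' := by
    ext f x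
    simp
  map_mul' a b := by
    refine LinearMap.ext fun f => ?_
    funext x
    simp [mul_assoc]

theorem wreathRep_injective {F : Type w} [Field F] {D : Type u} [Group D] {Q : Type*} [Group Q] {V : Type v}
    [AddCommGroup V] [Module F V] [Nontrivial V] (ρ : Representation F D V) (hρ : Function.Injective ρ) :
    Function.Injective (wreathRep (Q := Q) ρ) := by
  classical
  rw [injective_iff_map_eq_one]
  intro w hw
  have h1 : ∀ f : Q → V, ∀ x, ρ (w.left x) (f (w.right⁻¹ * x)) = f x := by
    intro f x
    exact congrFun (DFunLike.congr_fun hw f) x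
  have hr : w.right = 1 := by
    obtain ⟨v, hv⟩ := exists_ne (0 : V)
    by_contra hne
    have h2 := h1 (Pi.single 1 v) w.right
    rw [inv_mul_cancel, Pi.single_eq_same, Pi.single_eq_of_ne hne] at h2
    apply hv
    have h3 : ρ (w.left w.right)⁻¹ (ρ (w.left w.right) v) = v := by
      rw [← Module.End.mul_apply, ← map_mul, inv_mul_cancel, map_one]; rfl
    rw [h2, map_zero] at h3
    exact h3.symm
  have hl : w.left = 1 := by
    funext x
    apply hρ
    rw [Pi.one_apply, map_one]
    ext v
    have h2 := h1 (fun _ => v) x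
    exact h2
  ext
  · rw [hl]; rfl
  · rw [hr]; rfl

theorem exists_rep (p : ℕ) [hp : Fact p.Prime] {F : Type w} [Field F] [Finite F] (hpq : ¬ p ∣ Nat.card F) (k : ℕ) :
    ∃ (D : Type w) (_ : Group D) (_ : Finite D), IsPGroup p D ∧ derivedSeries D k ≠ ⊥ ∧
      ∃ (V : Type w) (_ : AddCommGroup V) (_ : Module F V) (_ : FiniteDimensional F V),
        finrank F V = orderOf (Nat.card F : ZMod p) * p ^ k ∧ ∃ ρ : Representation F D V, Function.Injective ρ := by
  have := Fintype.ofFinite F
  set e := orderOf (Nat.card F : ZMod p) with he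
  have he0 : 0 < e := orderOf_card_pos hpq
  induction k with
  | zero =>
    have hfin : Finite (GL (Fin e) F) := inferInstance
    have hdvd : p ∣ Nat.card (GL (Fin e) F) := by
      rw [Matrix.card_GL_field]
      have h1 : p ∣ Fintype.card F ^ e - Fintype.card F ^ ((⟨0, he0⟩ : Fin e) : ℕ) := by
        rw [← Nat.card_eq_fintype_card]
        have h1 : 1 ≤ Nat.card F ^ e := Nat.one_le_pow _ _ Nat.card_pos
        rw [← ZMod.natCast_eq_zero_iff]
        simp only [pow_zero]
        rw [Nat.cast_sub h1, Nat.cast_pow, he, pow_orderOf_eq_one, Nat.cast_one, sub_self]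
      exact h1.trans (Finset.dvd_prod_of_mem _ (Finset.mem_univ (⟨0, he0⟩ : Fin e)))
    obtain ⟨g, hg⟩ := exists_prime_orderOf_dvd_card' p hdvd
    refine ⟨Subgroup.zpowers g, inferInstance, inferInstance, ?_, ?_, Fin e → F, inferInstance, inferInstance,
      inferInstance, by simp, GLDer67.glRep (Subgroup.zpowers g).subtype, ?_⟩
    · apply IsPGroup.of_card (n := 1)
      rw [Nat.card_zpowers, hg, pow_one]
    · rw [derivedSeries_zero]
      intro h
      have h1 : (⟨g, Subgroup.mem_zpowers g⟩ : Subgroup.zpowers g) ∈ (⊤ : Subgroup (Subgroup.zpowers g)) := trivial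
      rw [h, Subgroup.mem_bot] at h1
      have h2 : g = 1 := congrArg Subtype.val h1
      rw [h2, orderOf_one] at hg
      exact hp.out.one_lt.ne hg
    · rw [injective_iff_map_eq_one]
      intro a ha
      exact Subtype.ext (GLDer67.glRep_eq_one ha)
  | succ k ih =>
    obtain ⟨D, _, _, hD, hDk, V, _, _, _, hV, ρ, hρ⟩ := ih
    have hnt : Nontrivial V := by
      apply Module.nontrivial_of_finrank_pos (R := F)
      rw [hV]
      exact Nat.mul_pos he0 (pow_pos hp.out.pos _)
    have hQ : Nat.card (Multiplicative (ZMod p)) = p := by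
      rw [Nat.card_congr Multiplicative.toAdd, Nat.card_zmod]
    have hQf : Finite (Multiplicative (ZMod p)) := inferInstance
    have : Fintype (Multiplicative (ZMod p)) := Fintype.ofFinite _
    refine ⟨D ≀ᵣ Multiplicative (ZMod p), inferInstance, inferInstance, ?_, ?_, Multiplicative (ZMod p) → V,
      inferInstance, inferInstance, inferInstance, ?_, wreathRep ρ, wreathRep_injective ρ hρ⟩
    · obtain ⟨a, ha⟩ := IsPGroup.iff_card.1 hD
      apply IsPGroup.of_card (n := a * p + 1)
      rw [RegularWreathProduct.card, hQ, ha, ← pow_mul, pow_succ]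
    · exact WreathDer67.derivedSeries_wreath_ne_bot hDk
    · rw [Module.finrank_pi_fintype, Finset.sum_const, Finset.card_univ, ← Nat.card_eq_fintype_card, hQ, hV]
      simp only [smul_eq_mul, pow_succ]
      ring

/-- a `p`-subgroup of `GL(n, q)` with nontrivial `k`-th derived subgroup. -/
theorem exists_hom (p : ℕ) [hp : Fact p.Prime] {F : Type w} [Field F] [Finite F] (hpq : ¬ p ∣ Nat.card F) (k n : ℕ)
    (hn : orderOf (Nat.card F : ZMod p) * p ^ k ≤ n) :
    ∃ (D : Type w) (_ : Group D) (_ : Finite D), IsPGroup p D ∧ derivedSeries D k ≠ ⊥ ∧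
      ∃ f : D →* Matrix.GeneralLinearGroup (Fin n) F, Function.Injective f := by
  obtain ⟨D, _, _, hD, hDk, V, _, _, _, hV, ρ, hρ⟩ := exists_rep p hpq k
  refine ⟨D, inferInstance, inferInstance, hD, hDk, ?_⟩
  let m := n - finrank F V
  let W := V × (Fin m → F)
  let σ : Representation F D W :=
    { toFun := fun g => LinearMap.prodMap (ρ g) LinearMap.id
      map_one' := by ext <;> simp
      map_mul' := fun a b => by ext <;> simp }
  have hW : finrank F W = n := by
    rw [Module.finrank_prod, Module.finrank_fintype_fun_eq_card, Fintype.card_fin, hV]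
    show orderOf (Nat.card F : ZMod p) * p ^ k + (n - finrank F V) = n
    rw [hV]
    omega
  let b := finBasisOfFinrankEq F W hW
  refine ⟨(Units.map (LinearMap.toMatrixAlgEquiv b : End F W →* Matrix (Fin n) (Fin n) F)).comp σ.asGroupHom, ?_⟩
  rw [injective_iff_map_eq_one]
  intro a ha
  have h2 : LinearMap.toMatrixAlgEquiv b (σ a) = 1 := congrArg Units.val ha
  have h3 : σ a = 1 := (LinearMap.toMatrixAlgEquiv b).injective (h2.trans (map_one _).symm)
  apply hρ
  rw [map_one]
  ext v
  have h4 := DFunLike.congr_fun h3 ((v, 0) : W)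
  exact congrArg Prod.fst h4

theorem derivedSeries_ne_bot_of_injective {G : Type u} {H : Type v} [Group G] [Group H] {f : G →* H}
    (hf : Function.Injective f) {k : ℕ} (h : derivedSeries G k ≠ ⊥) : derivedSeries H k ≠ ⊥ := by
  intro h1
  apply h
  have h2 := map_derivedSeries_le_derivedSeries f k
  rw [h1, le_bot_iff, Subgroup.map_eq_bot_iff_of_injective _ hf] at h2
  exact h2

end lower

end Cfsg.Agent.Lib.GLCross67
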