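import Cfsg.Agent.Lib.GLCount

/-! Determinants and types (helper41). -/

set_option autoImplicit false

namespace Cfsg.Agent.Lib.GLDet

open Polynomial Module Cfsg.Agent.Lib.FXType Cfsg.Agent.Lib.GLClass Cfsg.Agent.Lib.GLCount Classical

universe u v w

variable {F : Type u} [Field F]

theorem det_of_equiv {V : Type v} [AddCommGroup V] [Module F V] {W : Type w} [AddCommGroup W] [Module F W]
    {f : Module.End F V} {g : Module.End F W} (e : V ≃ₗ[F] W) (he : ∀ x, e (f x) = g (e x)) :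
    LinearMap.det f = LinearMap.det g := by
  have h : g = (e : V →ₗ[F] W) ∘ₗ f ∘ₗ (e.symm : W →ₗ[F] V) := by
    ext x
    simp only [LinearMap.comp_apply, LinearEquiv.coe_coe, he, LinearEquiv.apply_symm_apply]
  rw [h, LinearMap.det_conj]

/-- the determinant of multiplication by `h` on `F[X]/(g)` -/
noncomputable def Nm (g h : F[X]) : F := LinearMap.det (LinearMap.mulLeft F (AdjoinRoot.mk g h))

theorem mk_eq_of_dvd_sub {g a b : F[X]} (h : g ∣ a - b) : AdjoinRoot.mk g a = AdjoinRoot.mk g b := by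
  rw [← sub_eq_zero, ← map_sub]
  exact AdjoinRoot.mk_eq_zero.2 h

/-- multiplicativity in the modulus -/
theorem Nm_mul {g₁ g₂ : F[X]} (h1 : g₁ ≠ 0) (h2 : g₂ ≠ 0) (h : F[X]) : Nm (g₁ * g₂) h = Nm g₁ h * Nm g₂ h := by
  have h12 : g₁ * g₂ ≠ 0 := mul_ne_zero h1 h2
  have hfin := finite_adjoinRoot (g₁ * g₂) h12
  have hfin1 := finite_adjoinRoot g₁ h1
  have hfin2 := finite_adjoinRoot g₂ h2
  let π : AdjoinRoot (g₁ * g₂) →ₗ[F] AdjoinRoot g₁ :=
    (AdjoinRoot.algHomOfDvd F (g₁ * g₂) g₁ (dvd_mul_right _ _)).toLinearMap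
  have hπ : ∀ a : F[X], π (AdjoinRoot.mk (g₁ * g₂) a) = AdjoinRoot.mk g₁ a :=
    fun a => algHomOfDvd_mk (g₁ * g₂) g₁ (dvd_mul_right _ _) a
  let f : AdjoinRoot (g₁ * g₂) →ₗ[F] AdjoinRoot (g₁ * g₂) := LinearMap.mulLeft F (AdjoinRoot.mk _ h)
  have hπf : ∀ x, π (f x) = AdjoinRoot.mk g₁ h * π x := by
    intro x
    obtain ⟨a, rfl⟩ := AdjoinRoot.mk_surjective x
    change π (AdjoinRoot.mk _ h * AdjoinRoot.mk _ a) = _
    rw [← map_mul, hπ, hπ, map_mul]
  have hW : LinearMap.ker π ≤ (LinearMap.ker π).comap f := by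
    intro x hx
    rw [Submodule.mem_comap, LinearMap.mem_ker, hπf, LinearMap.mem_ker.1 hx, mul_zero]
  have hdet := LinearMap.det_eq_det_mul_det (LinearMap.ker π) f hW
  have hsurj : Function.Surjective π := by
    intro y
    obtain ⟨a, rfl⟩ := AdjoinRoot.mk_surjective y
    exact ⟨AdjoinRoot.mk _ a, hπ a⟩
  -- the quotient
  have hq : LinearMap.det ((LinearMap.ker π).mapQ (LinearMap.ker π) f hW) = Nm g₁ h := by
    refine det_of_equiv (π.quotKerEquivOfSurjective hsurj) ?_
    intro x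
    obtain ⟨y, rfl⟩ := Submodule.Quotient.mk_surjective _ x
    rw [Submodule.mapQ_apply]
    change π (f y) = AdjoinRoot.mk g₁ h * π y
    exact hπf y
  -- the kernel
  have hk : LinearMap.det (f.restrict hW) = Nm g₂ h := by
    let T : F[X] →ₗ[F] AdjoinRoot (g₁ * g₂) :=
      { toFun := fun a => AdjoinRoot.mk _ (g₁ * a)
        map_add' := fun a b => by rw [mul_add, map_add]
        map_smul' := fun c a => by
          rw [RingHom.id_apply, mul_smul_comm, AdjoinRoot.smul_mk] }
    have hker : ((Ideal.span {g₂} : Ideal F[X]).restrictScalars F) ≤ LinearMap.ker T := by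
      intro a ha
      rw [Submodule.restrictScalars_mem, Ideal.mem_span_singleton] at ha
      rw [LinearMap.mem_ker]
      exact AdjoinRoot.mk_eq_zero.2 (mul_dvd_mul_left g₁ ha)
    let T' : AdjoinRoot g₂ →ₗ[F] AdjoinRoot (g₁ * g₂) :=
      ((Ideal.span {g₂} : Ideal F[X]).restrictScalars F).liftQ T hker
    have hT' : ∀ a, T' (AdjoinRoot.mk _ a) = AdjoinRoot.mk _ (g₁ * a) := fun a => rfl
    have hT'inj : Function.Injective T' := by
      rw [injective_iff_map_eq_zero]
      intro x hx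
      obtain ⟨a, rfl⟩ := AdjoinRoot.mk_surjective x
      rw [hT', AdjoinRoot.mk_eq_zero] at hx
      exact AdjoinRoot.mk_eq_zero.2 ((mul_dvd_mul_iff_left h1).1 hx)
    have hrange : LinearMap.range T' = LinearMap.ker π := by
      ext x
      rw [LinearMap.mem_range, LinearMap.mem_ker]
      constructor
      · rintro ⟨y, rfl⟩
        obtain ⟨a, rfl⟩ := AdjoinRoot.mk_surjective y
        rw [hT', hπ]
        exact AdjoinRoot.mk_eq_zero.2 (dvd_mul_right _ _)
      · intro hx
        obtain ⟨a, rfl⟩ := AdjoinRoot.mk_surjective x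
        rw [hπ, AdjoinRoot.mk_eq_zero] at hx
        obtain ⟨b, rfl⟩ := hx
        exact ⟨AdjoinRoot.mk _ b, hT' b⟩
    let e : AdjoinRoot g₂ ≃ₗ[F] LinearMap.ker π :=
      (LinearEquiv.ofInjective T' hT'inj).trans (LinearEquiv.ofEq _ _ hrange)
    symm
    refine det_of_equiv e ?_
    intro x
    apply Subtype.ext
    change T' (AdjoinRoot.mk g₂ h * x) = AdjoinRoot.mk _ h * T' x
    obtain ⟨a, rfl⟩ := AdjoinRoot.mk_surjective x
    rw [← map_mul, hT', hT', ← map_mul]
    congr 1
    ring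
  rw [hq, hk] at hdet
  change LinearMap.det f = _
  rw [hdet, mul_comm]

theorem Nm_pow {g : F[X]} (h0 : g ≠ 0) (h : F[X]) (k : ℕ) : Nm (g ^ k) h = Nm g h ^ k := by
  induction k with
  | zero =>
    rw [pow_zero, pow_zero, Nm]
    have : Subsingleton (AdjoinRoot (1 : F[X])) := by
      apply subsingleton_of_zero_eq_one
      rw [← map_one (AdjoinRoot.mk (1 : F[X])), eq_comm, AdjoinRoot.mk_eq_zero]
    exact LinearMap.det_eq_one_of_subsingleton _
  | succ k ih =>
    rw [pow_succ, Nm_mul (pow_ne_zero _ h0) h0, ih, pow_succ]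

/-- the determinant of a companion matrix -/
noncomputable def dlt (g : F[X]) : F := (-1) ^ g.natDegree * g.coeff 0

theorem dlt_mul {g h : F[X]} (hg : g.Monic) (hh : h.Monic) : dlt (g * h) = dlt g * dlt h := by
  rw [dlt, dlt, dlt, hg.natDegree_mul hh, mul_coeff_zero, pow_add]
  ring

theorem dlt_pow {g : F[X]} (hg : g.Monic) (k : ℕ) : dlt (g ^ k) = dlt g ^ k := by
  induction k with
  | zero => simp [dlt]
  | succ k ih => rw [pow_succ, dlt_mul (hg.pow k) hg, ih, pow_succ]

theorem det_root {g : F[X]} (hg : g.Monic) : LinearMap.det (LinearMap.mulLeft F (AdjoinRoot.root g)) = dlt g := by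
  have h := Algebra.PowerBasis.norm_gen_eq_coeff_zero_minpoly (AdjoinRoot.powerBasis hg.ne_zero)
  rw [AdjoinRoot.powerBasis_gen, AdjoinRoot.powerBasis_dim, AdjoinRoot.minpoly_root hg.ne_zero, hg.leadingCoeff,
    inv_one, C_1, mul_one] at h
  exact h

/-- the determinant of a type -/
noncomputable def dT (s : Multiset (F[X] × ℕ)) : F := (s.map fun d => dlt d.1 ^ d.2).prod

theorem dT_add (s t : Multiset (F[X] × ℕ)) : dT (s + t) = dT s * dT t := by
  rw [dT, Multiset.map_add, Multiset.prod_add]; rfl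

theorem det_cyc {d : F[X] × ℕ} (hd : Good d) :
    LinearMap.det (LinearMap.mulLeft F (AdjoinRoot.root (d.1 ^ d.2))) = dlt d.1 ^ d.2 := by
  rw [det_root (hd.1.pow _), dlt_pow hd.1]

/-- a summand of the type gives a decomposition -/
theorem exists_split {V : Type v} [AddCommGroup V] [Module F V] {f : Module.End F V} {d : F[X] × ℕ}
    {t : Multiset (F[X] × ℕ)} (h : HasType f (d ::ₘ t)) :
    ∃ (m : ℕ) (f' : Module.End F (Fin m → F)) (e : V ≃ₗ[F] (AdjoinRoot (d.1 ^ d.2) × (Fin m → F))), HasType f' t ∧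
      ∀ x, e (f x) = LinearMap.prodMap (LinearMap.mulLeft F (AdjoinRoot.root (d.1 ^ d.2))) f' (e x) := by
  have hd := h.good d (Multiset.mem_cons_self d t)
  obtain ⟨f', hf'⟩ := exists_of_type t (fun x hx => h.good x (Multiset.mem_cons_of_mem hx)) _ rfl
  have h1 := (hasType_cyc d hd).prod hf'
  rw [Multiset.singleton_add] at h1
  obtain ⟨e, he⟩ := h.equiv h1
  exact ⟨_, f', e, hf', he⟩

theorem det_type (s : Multiset (F[X] × ℕ)) (n : ℕ) (f : Module.End F (Fin n → F))
    (h : HasType f s) : LinearMap.det f = dT s := by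
  induction s using Multiset.induction_on generalizing n with
  | empty =>
    obtain ⟨m, d, hd, hs, e, -⟩ := h
    have hn : m = 0 := by
      have := congrArg Multiset.card hs
      simpa using this
    subst hn
    have : Subsingleton (Fin n → F) := e.toEquiv.subsingleton
    rw [LinearMap.det_eq_one_of_subsingleton]
    simp [dT]
  | cons d t ih =>
    have hd := h.good d (Multiset.mem_cons_self d t)
    obtain ⟨m, f', e, hf', he⟩ := exists_split h
    have := hd.finite
    have h2 := ih m f' hf'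
    rw [det_of_equiv e he, LinearMap.det_prodMap, det_cyc hd, h2, dT, dT, Multiset.map_cons, Multiset.prod_cons]

theorem det_mtype {n : ℕ} {A : Matrix (Fin n) (Fin n) F} {s : Multiset (F[X] × ℕ)} (h : MType A s) :
    A.det = dT s := by
  rw [← det_type s n _ h]
  change _ = LinearMap.det (Matrix.toLin' A)
  rw [LinearMap.det_toLin']

/-- centralizers have large determinants -/
theorem exists_commute_det [Finite F] {V : Type v} [AddCommGroup V] [Module F V] {f : Module.End F V}
    {s : Multiset (F[X] × ℕ)} (h : HasType f s) {d : F[X] × ℕ} (hd : d ∈ s) (b : Fˣ) :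
    ∃ y : V ≃ₗ[F] V, (∀ x, y (f x) = f (y x)) ∧ LinearMap.det (y : V →ₗ[F] V) = (b : F) ^ d.2 := by
  obtain ⟨t, rfl⟩ := Multiset.exists_cons_of_mem hd
  have hg := h.good d hd
  obtain ⟨m, f', e, hf', he⟩ := exists_split h
  have hfin := hg.finite
  have : Fact (Irreducible d.1) := ⟨hg.2.1⟩
  have hfin1 := finite_adjoinRoot d.1 hg.2.1.ne_zero
  have : Finite (AdjoinRoot d.1) := Module.finite_of_finite F
  obtain ⟨u, hu⟩ := FiniteField.norm_surjective F (AdjoinRoot d.1) (b : F)
  obtain ⟨h0, rfl⟩ := AdjoinRoot.mk_surjective u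
  have hNm : Nm d.1 h0 = b := hu
  -- `h0` is invertible modulo `d.1 ^ d.2`
  have hdet : LinearMap.det (LinearMap.mulLeft F (AdjoinRoot.mk (d.1 ^ d.2) h0)) = (b : F) ^ d.2 := by
    change Nm _ _ = _
    rw [Nm_pow hg.2.1.ne_zero, hNm]
  have hdet0 : LinearMap.det (LinearMap.mulLeft F (AdjoinRoot.mk (d.1 ^ d.2) h0)) ≠ 0 := by
    rw [hdet]; exact pow_ne_zero _ b.ne_zero
  have hun : IsUnit (LinearMap.det (LinearMap.prodMap (LinearMap.mulLeft F (AdjoinRoot.mk (d.1 ^ d.2) h0))
      (LinearMap.id : (Fin m → F) →ₗ[F] (Fin m → F)))) := by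
    rw [LinearMap.det_prodMap, LinearMap.det_id, mul_one]
    exact isUnit_iff_ne_zero.2 hdet0
  let P := LinearEquiv.ofIsUnitDet (f := (LinearMap.prodMap (LinearMap.mulLeft F (AdjoinRoot.mk (d.1 ^ d.2) h0))
      (LinearMap.id : (Fin m → F) →ₗ[F] (Fin m → F)))) (v := Module.finBasis F _) (v' := Module.finBasis F _) (by
        rw [LinearMap.det_toMatrix]; exact hun)
  have hP : ∀ x, P x = (AdjoinRoot.mk (d.1 ^ d.2) h0 * x.1, x.2) := fun x => rfl
  refine ⟨e.trans (P.trans e.symm), ?_, ?_⟩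
  · intro x
    rw [LinearEquiv.trans_apply, LinearEquiv.trans_apply, LinearEquiv.trans_apply, LinearEquiv.trans_apply,
      LinearEquiv.symm_apply_eq, he, he, LinearEquiv.apply_symm_apply]
    rw [hP, hP]
    apply Prod.ext
    · change AdjoinRoot.mk (d.1 ^ d.2) h0 * (AdjoinRoot.root (d.1 ^ d.2) * (e x).1) =
        AdjoinRoot.root (d.1 ^ d.2) * (AdjoinRoot.mk (d.1 ^ d.2) h0 * (e x).1)
      ring
    · rfl
  · have h3 : LinearMap.det ((e.trans (P.trans e.symm) : V ≃ₗ[F] V) : V →ₗ[F] V) =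
        LinearMap.det (LinearMap.prodMap (LinearMap.mulLeft F (AdjoinRoot.mk (d.1 ^ d.2) h0))
      (LinearMap.id : (Fin m → F) →ₗ[F] (Fin m → F))) := by
      refine det_of_equiv e ?_
      intro x
      change e (e.symm (P (e x))) = P (e x)
      rw [LinearEquiv.apply_symm_apply]
    rw [h3, LinearMap.det_prodMap, LinearMap.det_id, mul_one, hdet]

/-- matrix form -/
theorem exists_commute_det_matrix [Finite F] {n : ℕ} {g : GL (Fin n) F} {s : Multiset (F[X] × ℕ)}
    (h : MType (g : Matrix (Fin n) (Fin n) F) s) {d : F[X] × ℕ} (hd : d ∈ s) (b : Fˣ) :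
    ∃ y : GL (Fin n) F, y * g = g * y ∧ Matrix.GeneralLinearGroup.det y = b ^ d.2 := by
  obtain ⟨y, hy1, hy2⟩ := exists_commute_det h hd b
  refine ⟨(LinAux.glEquiv (Fin n) F).symm y, ?_, ?_⟩
  · apply LinAux.gl_ext
    intro x
    rw [Units.val_mul, Units.val_mul, ← Matrix.mulVec_mulVec, ← Matrix.mulVec_mulVec, LinAux.glEquiv_symm_mulVec,
      LinAux.glEquiv_symm_mulVec]
    exact hy1 x
  · apply Units.ext
    rw [Units.val_pow_eq_pow_val, ← hy2, ← LinearEquiv.coe_det]
    exact LinAux.det_glEquiv_symm y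

end Cfsg.Agent.Lib.GLDet
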