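import Mathlib
import Cfsg.Prelude.Def_Transfer

/-!
# Involutions of determinant one in `GL₃` in odd characteristic (helper80)
-/

set_option autoImplicit false

open Matrix

namespace Cfsg.Agent.Lib.GLThreeInv

variable {F : Type*} [Field F]

theorem adjugate_one_add (A : Matrix (Fin 3) (Fin 3) F) :
    (1 + A).adjugate = A.adjugate + (A.trace • (1 : Matrix (Fin 3) (Fin 3) F) - A) + 1 := by
  ext i j
  fin_cases i <;> fin_cases j <;>
    simp [adjugate_fin_three, Matrix.trace, Fin.sum_univ_three] <;> ring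

theorem adjugate_eq_self {A : Matrix (Fin 3) (Fin 3) F} (hA : A * A = 1) (hd : A.det = 1) : A.adjugate = A := by
  have h := Matrix.mul_adjugate A
  rw [hd, one_smul] at h
  calc A.adjugate = (A * A) * A.adjugate := by rw [hA, one_mul]
    _ = A := by rw [mul_assoc, h, mul_one]

theorem adjugate_eq_zero {A : Matrix (Fin 3) (Fin 3) F} (hA : A * A = 1) (hd : A.det = 1)
    (h1 : A ≠ 1) : (1 + A).adjugate = 0 := by
  have h := adjugate_one_add A
  rw [adjugate_eq_self hA hd] at h
  have h3 : (1 + A).adjugate = (A.trace + 1) • (1 : Matrix (Fin 3) (Fin 3) F) := by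
    rw [h, add_smul, one_smul]; abel
  by_cases ht : A.trace + 1 = 0
  · rw [h3, ht, zero_smul]
  exfalso
  have h4 := Matrix.mul_adjugate (1 + A)
  rw [h3, Matrix.mul_smul, mul_one] at h4
  -- so `1 + A` is scalar
  obtain ⟨c, hc⟩ : ∃ c : F, A = c • (1 : Matrix (Fin 3) (Fin 3) F) := by
    refine ⟨(A.trace + 1)⁻¹ * (1 + A).det - 1, ?_⟩
    have h5 : 1 + A = ((A.trace + 1)⁻¹ * (1 + A).det) • (1 : Matrix (Fin 3) (Fin 3) F) := by
      rw [mul_smul, ← h4, smul_smul, inv_mul_cancel₀ ht, one_smul]
    rw [sub_smul, ← h5, one_smul]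
    abel
  have h6 : c * c = 1 := by
    have := congrFun (congrFun hA 0) 0
    rw [hc] at this
    simpa using this
  have h7 : c * c * c = 1 := by
    rw [hc, Matrix.det_smul, Matrix.det_one] at hd
    simp only [Fintype.card_fin, mul_one] at hd
    rw [← hd]; ring
  have h8 : c = 1 := by rw [h6, one_mul] at h7; exact h7
  apply h1
  rw [hc, h8, one_smul]

set_option maxHeartbeats 2000000 in
theorem minors {B : Matrix (Fin 3) (Fin 3) F} (h : B.adjugate = 0) (i j k l : Fin 3) :
    B i k * B l j = B i j * B l k := by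
  have h00 := congrFun (congrFun h 0) 0
  have h01 := congrFun (congrFun h 0) 1
  have h02 := congrFun (congrFun h 0) 2
  have h10 := congrFun (congrFun h 1) 0
  have h11 := congrFun (congrFun h 1) 1
  have h12 := congrFun (congrFun h 1) 2
  have h20 := congrFun (congrFun h 2) 0
  have h21 := congrFun (congrFun h 2) 1
  have h22 := congrFun (congrFun h 2) 2
  simp only [adjugate_fin_three, Matrix.of_apply, Matrix.cons_val', Matrix.cons_val_zero, Matrix.cons_val_one,
    Matrix.cons_val, Matrix.zero_apply, Matrix.empty_val', Matrix.cons_val_fin_one] at h00 h01 h02 h10 h11 h12 h20 h21 h22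
  fin_cases i <;> fin_cases j <;> fin_cases k <;> fin_cases l <;>
    simp only [Fin.zero_eta, Fin.mk_one, Fin.reduceFinMk, Fin.isValue] <;>
    first
    | ring1
    | linear_combination h00
    | linear_combination h01
    | linear_combination h02
    | linear_combination h10
    | linear_combination h11
    | linear_combination h12
    | linear_combination h20
    | linear_combination h21
    | linear_combination h22
    | linear_combination -h00
    | linear_combination -h01
    | linear_combination -h02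
    | linear_combination -h10
    | linear_combination -h11
    | linear_combination -h12
    | linear_combination -h20
    | linear_combination -h21
    | linear_combination -h22

theorem rank_one {A : Matrix (Fin 3) (Fin 3) F} (hA : A * A = 1) (hd : A.det = 1)
    (h1 : A ≠ 1) (M : Matrix (Fin 3) (Fin 3) F) : ∃ c : F, (1 + A) * M * (1 + A) = c • (1 + A) := by
  have h := minors (adjugate_eq_zero hA hd h1)
  set B := 1 + A with hB
  refine ⟨(B * M).trace, ?_⟩
  ext i j
  rw [Matrix.smul_apply, smul_eq_mul, Matrix.mul_apply, Matrix.trace, Finset.sum_mul]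
  apply Finset.sum_congr rfl
  intro l _
  rw [Matrix.mul_apply, Matrix.diag_apply, Matrix.mul_apply, Finset.sum_mul, Finset.sum_mul]
  apply Finset.sum_congr rfl
  intro k _
  have := h i j k l
  linear_combination (M k l) * this

/-- distinct commuting involutions of determinant one -/
theorem mul_eq_zero_of_comm (h2 : (2 : F) ≠ 0) {A B : Matrix (Fin 3) (Fin 3) F} (hA : A * A = 1) (hB : B * B = 1)
    (hAd : A.det = 1) (hBd : B.det = 1) (hA1 : A ≠ 1) (hB1 : B ≠ 1) (hAB : A ≠ B) (hc : A * B = B * A) :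
    (1 + A) * (1 + B) = 0 := by
  have hPP : (1 + A) * (1 + A) = (2 : F) • (1 + A) := by
    rw [two_smul]; simp only [mul_add, add_mul, mul_one, one_mul, hA]; abel
  have hQQ : (1 + B) * (1 + B) = (2 : F) • (1 + B) := by
    rw [two_smul]; simp only [mul_add, add_mul, mul_one, one_mul, hB]; abel
  have hPQ : (1 + A) * (1 + B) = (1 + B) * (1 + A) := by
    simp only [mul_add, add_mul, mul_one, one_mul, hc]; abel
  obtain ⟨c, hc1⟩ := rank_one hA hAd hA1 (1 + B)
  obtain ⟨d, hd1⟩ := rank_one hB hBd hB1 (1 + A)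
  set P := 1 + A with hP
  set Q := 1 + B with hQ
  have h1 : (2 : F) • (P * Q) = c • P := by
    rw [← hc1, hPQ, mul_assoc, hPP, Matrix.mul_smul]
  have h1' : (2 : F) • (P * Q) = d • Q := by
    rw [← hd1, mul_assoc, hPQ, ← mul_assoc, hQQ, Matrix.smul_mul]
  have e1 : P * Q = (2⁻¹ * c) • P := by
    rw [mul_smul, ← h1, smul_smul, inv_mul_cancel₀ h2, one_smul]
  have e2 : P * Q = (2⁻¹ * d) • Q := by
    rw [mul_smul, ← h1', smul_smul, inv_mul_cancel₀ h2, one_smul]
  by_contra hne
  have k1 : (2 : F) • (P * Q) = (2⁻¹ * d) • (P * Q) := by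
    calc (2 : F) • (P * Q) = (P * P) * Q := by rw [hPP, Matrix.smul_mul]
      _ = P * (P * Q) := mul_assoc _ _ _
      _ = P * ((2⁻¹ * d) • Q) := by rw [← e2]
      _ = _ := by rw [Matrix.mul_smul]
  have k2 : (2 : F) • (P * Q) = (2⁻¹ * c) • (P * Q) := by
    calc (2 : F) • (P * Q) = P * (Q * Q) := by rw [hQQ, Matrix.mul_smul]
      _ = (P * Q) * Q := (mul_assoc _ _ _).symm
      _ = ((2⁻¹ * c) • P) * Q := by rw [← e1]
      _ = _ := by rw [Matrix.smul_mul]
  have j1 : (2 : F) = 2⁻¹ * d := smul_left_injective F hne k1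
  have j2 : (2 : F) = 2⁻¹ * c := smul_left_injective F hne k2
  have j3 : P = Q := by
    have : (2 : F) • P = (2 : F) • Q := by
      nth_rewrite 1 [j2]; rw [← e1, e2, ← j1]
    exact smul_right_injective _ h2 this
  exact hAB (by rw [hP, hQ] at j3; exact add_left_cancel j3)

theorem two_smul_ne {M : Matrix (Fin 3) (Fin 3) F} (h2 : (2 : F) ≠ 0) (h : M = -M) : M = 0 := by
  have : (2 : F) • M = 0 := by rw [two_smul]; nth_rewrite 1 [h]; rw [neg_add_cancel]
  exact (smul_eq_zero.1 this).resolve_left h2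

theorem det_neg_one_ne (h2 : (2 : F) ≠ 0) : (-1 : Matrix (Fin 3) (Fin 3) F).det ≠ 1 := by
  rw [Matrix.det_neg, Matrix.det_one, Fintype.card_fin]
  intro h
  apply h2
  have : (-1 : F) ^ 3 * 1 = -1 := by ring
  rw [this] at h
  linear_combination -h

/-- three independent commuting involutions of determinant one do not exist -/
theorem no_three (h2 : (2 : F) ≠ 0) {A B C : Matrix (Fin 3) (Fin 3) F} (hA : A * A = 1) (hB : B * B = 1)
    (hC : C * C = 1) (hAd : A.det = 1) (hBd : B.det = 1) (hCd : C.det = 1) (hA1 : A ≠ 1) (hB1 : B ≠ 1)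
    (hC1 : C ≠ 1) (hAB : A ≠ B) (hAC : A ≠ C) (hBC : B ≠ C) (hABC : A ≠ B * C) (cAB : A * B = B * A)
    (cAC : A * C = C * A) (cBC : B * C = C * B) : False := by
  have h1 := mul_eq_zero_of_comm h2 hA hB hAd hBd hA1 hB1 hAB cAB
  have h3 := mul_eq_zero_of_comm h2 hA hC hAd hCd hA1 hC1 hAC cAC
  have h4 := mul_eq_zero_of_comm (B := B * C) h2 hA (by
      calc B * C * (B * C) = B * (C * B) * C := by simp only [mul_assoc]
        _ = B * (B * C) * C := by rw [cBC]
        _ = (B * B) * (C * C) := by simp only [mul_assoc]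
        _ = 1 := by rw [hB, hC, one_mul]) hAd (by rw [Matrix.det_mul, hBd, hCd, one_mul]) hA1
    (by
      intro h
      apply hBC
      calc B = B * (C * C) := by rw [hC, mul_one]
        _ = (B * C) * C := by rw [mul_assoc]
        _ = C := by rw [h, one_mul]) hABC
    (by rw [← mul_assoc, cAB, mul_assoc, cAC, mul_assoc])
  have k1 : (1 + A) * B = -(1 + A) := by
    rw [mul_add, mul_one] at h1
    exact eq_neg_of_add_eq_zero_right h1
  have k3 : (1 + A) * C = -(1 + A) := by
    rw [mul_add, mul_one] at h3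
    exact eq_neg_of_add_eq_zero_right h3
  have k4 : (1 + A) * (B * C) = -(1 + A) := by
    rw [mul_add, mul_one] at h4
    exact eq_neg_of_add_eq_zero_right h4
  have k5 : (1 + A) * (B * C) = (1 + A) := by
    rw [← mul_assoc, k1, neg_mul, k3, neg_neg]
  have k6 : 1 + A = 0 := two_smul_ne h2 (by rw [← k4, k5])
  have k7 : A = -1 := eq_neg_of_add_eq_zero_right k6
  rw [k7] at hAd
  exact det_neg_one_ne h2 hAd

/-- what commutes with a fours-group of involutions of determinant one is commutative -/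
theorem comm_of_comm (h2 : (2 : F) ≠ 0) {A B : Matrix (Fin 3) (Fin 3) F} (hA : A * A = 1) (hB : B * B = 1)
    (hAd : A.det = 1) (hBd : B.det = 1) (hA1 : A ≠ 1) (hB1 : B ≠ 1) (hAB : A ≠ B) (hc : A * B = B * A)
    {X Y : Matrix (Fin 3) (Fin 3) F} (xA : X * A = A * X) (xB : X * B = B * X) (yA : Y * A = A * Y)
    (yB : Y * B = B * Y) : X * Y = Y * X := by
  have hz := mul_eq_zero_of_comm h2 hA hB hAd hBd hA1 hB1 hAB hc
  have hD : A * B * (A * B) = 1 := by
    calc A * B * (A * B) = A * (B * A) * B := by simp only [mul_assoc]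
      _ = A * (A * B) * B := by rw [hc]
      _ = (A * A) * (B * B) := by simp only [mul_assoc]
      _ = 1 := by rw [hA, hB, one_mul]
  have hD1 : A * B ≠ 1 := by
    intro h
    apply hAB
    calc A = A * (B * B) := by rw [hB, mul_one]
      _ = (A * B) * B := by rw [mul_assoc]
      _ = B := by rw [h, one_mul]
  have hsum : (1 + A) + (1 + B) + (1 + A * B) = (2 : F) • (1 : Matrix (Fin 3) (Fin 3) F) := by
    have : (1 + A) + (1 + B) + (1 + A * B) = (1 + A) * (1 + B) + 1 + 1 := by
      simp only [mul_add, add_mul, mul_one, one_mul]; abel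
    rw [this, hz, zero_add, two_smul]
  have key : ∀ {A : Matrix (Fin 3) (Fin 3) F} (_ : A * A = 1) (_ : A.det = 1) (_ : A ≠ 1)
      {X Y : Matrix (Fin 3) (Fin 3) F} (_ : X * A = A * X) (_ : Y * A = A * Y),
      X * Y * (1 + A) = Y * X * (1 + A) := by
    intro A hA hAd hA1 X Y xA yA
    have hPP : (1 + A) * (1 + A) = (2 : F) • (1 + A) := by
      rw [two_smul]; simp only [mul_add, add_mul, mul_one, one_mul, hA]; abel
    have aux : ∀ {Z : Matrix (Fin 3) (Fin 3) F} (_ : Z * A = A * Z), ∃ c : F, Z * (1 + A) = c • (1 + A) := by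
      intro Z hZ
      obtain ⟨c, hc⟩ := rank_one hA hAd hA1 Z
      refine ⟨2⁻¹ * c, ?_⟩
      have h3 : (1 + A) * Z = Z * (1 + A) := by rw [add_mul, mul_add, one_mul, mul_one, hZ]
      rw [h3, mul_assoc, hPP, Matrix.mul_smul] at hc
      rw [mul_smul, ← hc, smul_smul, inv_mul_cancel₀ h2, one_smul]
    obtain ⟨c, hc⟩ := aux xA
    obtain ⟨d, hd⟩ := aux yA
    rw [mul_assoc, mul_assoc, hd, hc, Matrix.mul_smul, Matrix.mul_smul, hd, hc, smul_smul, smul_smul, mul_comm]
  have e1 := key hA hAd hA1 xA yA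
  have e2 := key hB hBd hB1 xB yB
  have e3 := key hD (by rw [Matrix.det_mul, hAd, hBd, one_mul]) hD1 (X := X) (Y := Y)
    (by rw [← mul_assoc, xA, mul_assoc, xB, mul_assoc]) (by rw [← mul_assoc, yA, mul_assoc, yB, mul_assoc])
  have e4 : X * Y * ((1 + A) + (1 + B) + (1 + A * B)) = Y * X * ((1 + A) + (1 + B) + (1 + A * B)) := by
    rw [mul_add, mul_add, e1, e2, e3, ← mul_add, ← mul_add]
  rw [hsum, Matrix.mul_smul, Matrix.mul_smul, mul_one, mul_one] at e4
  exact smul_right_injective _ h2 e4

end Cfsg.Agent.Lib.GLThreeInv
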