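import Mathlib

/-!
# Grün's first theorem (helper70)

`grun` : if the subgroup `D` contains `P ∩ N(P)'` and every
`P ∩ (P')^z`, then `P ∩ G' ≤ D`.
-/

set_option autoImplicit false
set_option linter.unusedSectionVars false

open MulAction Subgroup
open scoped Pointwise commutatorElement

namespace Cfsg.Agent.Lib.H70Grun

variable {G : Type*} [Group G] [Finite G]

open Classical in
/-- the value of `φ : H →* A` at an element of `G` (1 outside `H`) -/
noncomputable def psi {H : Subgroup G} {A : Type*} [CommGroup A] (φ : H →* A) (x : G) : A :=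
  if h : x ∈ H then φ ⟨x, h⟩ else 1

theorem psi_of_mem {H : Subgroup G} {A : Type*} [CommGroup A] (φ : H →* A) {x : G} (h : x ∈ H) :
    psi φ x = φ ⟨x, h⟩ := by
  simp [psi, h]

theorem conj_mem_of_smul_eq {H : Subgroup G} {u : G} {c : G ⧸ H} (h : u • c = c) :
    c.out⁻¹ * u * c.out ∈ H := by
  have h1 : ((u * c.out : G) : G ⧸ H) = (c.out : G ⧸ H) := by
    conv_rhs => rw [QuotientGroup.out_eq', ← h]
    conv_rhs => rw [← QuotientGroup.out_eq' c]
    rfl
  have h2 := QuotientGroup.eq.1 h1.symm
  rwa [← mul_assoc] at h2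

theorem transfer_eq_prod_fixed {H : Subgroup G} {A : Type*} [CommGroup A] (φ : H →* A) (u : G)
    [Fintype (G ⧸ H)] [DecidableEq (G ⧸ H)]
    (h : ∀ (x : G) (k : ℕ), 1 < k → k ∣ orderOf u → (hx : x⁻¹ * u ^ k * x ∈ H) → φ ⟨_, hx⟩ = 1) :
    MonoidHom.transfer φ u =
      ∏ c ∈ Finset.univ.filter (fun c : G ⧸ H => u • c = c), psi φ (c.out⁻¹ * u * c.out) := by
  classical
  have hft := MonoidHom.transfer_eq_prod_quotient_orbitRel_zpowers_quot φ u
  rw [hft]
  have hfix : ∀ q : G ⧸ H, Function.minimalPeriod (u • ·) q = 1 ↔ u • q = q := by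
    intro q
    rw [Function.minimalPeriod_eq_one_iff_isFixedPt]
    rfl
  rw [← Finset.prod_filter_mul_prod_filter_not Finset.univ
    (fun q : Quotient (orbitRel (zpowers u) (G ⧸ H)) => u • q.out = q.out)]
  rw [Finset.prod_eq_one (s := Finset.univ.filter
    (fun q : Quotient (orbitRel (zpowers u) (G ⧸ H)) => ¬ u • q.out = q.out)), mul_one]
  · refine Finset.prod_bij (fun q _ => q.out) ?_ ?_ ?_ ?_
    · intro q hq
      simpa using hq
    · intro q _ q' _ hqq
      exact Quotient.out_injective hqq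
    · intro c hc
      simp only [Finset.mem_filter, Finset.mem_univ, true_and] at hc
      have hcc : ∀ z : zpowers u, z • c = c := by
        rintro ⟨z, hz⟩
        obtain ⟨k, rfl⟩ := Subgroup.mem_zpowers_iff.1 hz
        have : u ∈ MulAction.stabilizer G c := hc
        exact (MulAction.stabilizer G c).zpow_mem this k
      have h3 : (Quotient.mk (orbitRel (zpowers u) (G ⧸ H)) c).out = c := by
        have h4 : (orbitRel (zpowers u) (G ⧸ H)).r (Quotient.mk (orbitRel (zpowers u) (G ⧸ H)) c).out c :=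
          Quotient.exact (Quotient.out_eq _)
        obtain ⟨z, hz⟩ := h4
        simp only at hz
        rw [← hz, hcc z]
      refine ⟨Quotient.mk _ c, ?_, h3⟩
      simp only [Finset.mem_filter, Finset.mem_univ, true_and]
      rw [h3]
      exact hc
    · intro q hq
      simp only [Finset.mem_filter, Finset.mem_univ, true_and] at hq
      rw [psi_of_mem φ (conj_mem_of_smul_eq hq)]
      congr 2
      rw [(hfix _).2 hq, pow_one]
  · intro q hq
    simp only [Finset.mem_filter, Finset.mem_univ, true_and] at hq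
    apply h
    · have h0 : 0 < Function.minimalPeriod (u • ·) q.out := by
        apply Function.minimalPeriod_pos_of_mem_periodicPts
        refine ⟨orderOf u, orderOf_pos u, ?_⟩
        change ((u • ·)^[orderOf u]) q.out = q.out
        rw [smul_iterate, pow_orderOf_eq_one]
        exact one_smul _ _
      have h1 : Function.minimalPeriod (u • ·) q.out ≠ 1 := fun h2 => hq ((hfix _).1 h2)
      omega
    · apply Function.IsPeriodicPt.minimalPeriod_dvd
      change ((u • ·)^[orderOf u]) q.out = q.out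
      rw [smul_iterate, pow_orderOf_eq_one]
      exact one_smul _ _

theorem prod_fixed {p : ℕ} [Fact p.Prime] {P : Subgroup G} (hP : IsPGroup p P) {A : Type*} [CommGroup A]
    {u : G} (hu : u ∈ P) [Fintype (G ⧸ P)] [DecidableEq (G ⧸ P)] (ψ : G ⧸ P → A)
    (a : A) (ha : ∀ c : G ⧸ P, (∀ v ∈ P, v • c = c) → ψ c = a)
    (hconst : ∀ (c : G ⧸ P) (v : G), v ∈ P → u • c = c → u • (v • c) = v • c → ψ (v • c) = ψ c)
    (hpow : ∀ c : G ⧸ P, u • c = c → (∃ v ∈ P, v • c ≠ c) → ψ c ^ p = 1) :
    ∏ c ∈ Finset.univ.filter (fun c : G ⧸ P => u • c = c), ψ c =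
      a ^ Nat.card (MulAction.fixedPoints P (G ⧸ P)) := by
  classical
  set S := Finset.univ.filter (fun c : G ⧸ P => u • c = c) with hS
  have hfixsub : ∀ c : G ⧸ P, c ∈ MulAction.fixedPoints P (G ⧸ P) ↔ ∀ v ∈ P, v • c = c := by
    intro c
    rw [MulAction.mem_fixedPoints]
    exact ⟨fun h v hv => h ⟨v, hv⟩, fun h v => h v v.2⟩
  rw [← Finset.prod_filter_mul_prod_filter_not S (fun c => ∀ v ∈ P, v • c = c)]
  have h1 : ∏ c ∈ S.filter (fun c => ∀ v ∈ P, v • c = c), ψ c =
      a ^ Nat.card (MulAction.fixedPoints P (G ⧸ P)) := by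
    rw [Finset.prod_congr rfl (fun c hc => ha c (Finset.mem_filter.1 hc).2), Finset.prod_const]
    congr 1
    rw [Nat.card_eq_fintype_card, ← Set.toFinset_card]
    congr 1
    ext c
    rw [Set.mem_toFinset, hfixsub, hS]
    simp only [Finset.mem_filter, Finset.mem_univ, true_and, and_iff_right_iff_imp]
    intro h
    exact h u hu
  have h2 : ∏ c ∈ S.filter (fun c => ¬ ∀ v ∈ P, v • c = c), ψ c = 1 := by
    set S' := S.filter (fun c => ¬ ∀ v ∈ P, v • c = c) with hS'
    rw [← Finset.prod_fiberwise S' (fun c => (Quotient.mk (orbitRel P (G ⧸ P)) c)) ψ]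
    apply Finset.prod_eq_one
    intro O _
    set T := S'.filter (fun c => Quotient.mk (orbitRel P (G ⧸ P)) c = O) with hT
    rcases T.eq_empty_or_nonempty with h0 | ⟨c₀, hc₀⟩
    · rw [h0, Finset.prod_empty]
    · have hc₀' := hc₀
      rw [hT, Finset.mem_filter, hS', Finset.mem_filter, hS, Finset.mem_filter] at hc₀'
      obtain ⟨⟨⟨_, hc1⟩, hc2⟩, hc3⟩ := hc₀'
      have hmemT : ∀ c, c ∈ T ↔ c ∈ orbit P c₀ ∧ u • c = c := by
        intro c
        rw [hT, Finset.mem_filter, hS', Finset.mem_filter, hS, Finset.mem_filter]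
        constructor
        · rintro ⟨⟨⟨_, h1⟩, h2⟩, h3⟩
          refine ⟨?_, h1⟩
          rw [← hc3] at h3
          exact Quotient.exact h3
        · rintro ⟨h1, h2⟩
          refine ⟨⟨⟨Finset.mem_univ _, h2⟩, ?_⟩, ?_⟩
          · intro h3
            apply hc2
            obtain ⟨w, rfl⟩ := h1
            simp only at h3
            intro v hv
            have h4 := h3 (w * v * w⁻¹) (P.mul_mem (P.mul_mem w.2 hv) (P.inv_mem w.2))
            have h5 : (w : G) • v • c₀ = (w : G) • c₀ := by
              calc (w : G) • v • c₀ = ((w : G) * v * (w : G)⁻¹) • ((w : G) • c₀) := by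
                    rw [smul_smul, smul_smul]; congr 1; group
                _ = (w : G) • c₀ := h4
            exact MulAction.injective _ h5
          · rw [← hc3]
            exact Quotient.sound h1
      have hval : ∀ c ∈ T, ψ c = ψ c₀ := by
        intro c hc
        obtain ⟨⟨w, rfl⟩, h2⟩ := (hmemT c).1 hc
        exact hconst c₀ w w.2 hc1 h2
      rw [Finset.prod_congr rfl hval, Finset.prod_const]
      have hpT : p ∣ T.card := by
        have hcard : T.card = Nat.card (MulAction.fixedPoints (zpowers (⟨u, hu⟩ : P)) (orbit P c₀)) := by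
          rw [← Fintype.card_coe T, ← Nat.card_eq_fintype_card]
          have hz : ∀ x : orbit P c₀, x ∈ MulAction.fixedPoints (zpowers (⟨u, hu⟩ : P)) (orbit P c₀) ↔
              u • (x : G ⧸ P) = x := by
            intro x
            rw [MulAction.mem_fixedPoints]
            constructor
            · intro h
              have := h ⟨⟨u, hu⟩, Subgroup.mem_zpowers _⟩
              exact congrArg Subtype.val this
            · rintro h ⟨z, hz⟩
              obtain ⟨k, rfl⟩ := Subgroup.mem_zpowers_iff.1 hz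
              have h1 : (⟨u, hu⟩ : P) ∈ MulAction.stabilizer P x := Subtype.ext h
              exact (MulAction.stabilizer P x).zpow_mem h1 k
          refine Nat.card_congr
            { toFun := fun c => ⟨⟨c, ((hmemT c).1 c.2).1⟩, (hz _).2 ((hmemT c).1 c.2).2⟩
              invFun := fun x => ⟨x.1.1, (hmemT _).2 ⟨x.1.2, (hz _).1 x.2⟩⟩
              left_inv := fun c => rfl
              right_inv := fun x => rfl }
        have hmod := (hP.to_subgroup (zpowers (⟨u, hu⟩ : P))).card_modEq_card_fixedPoints (orbit P c₀)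
        obtain ⟨n, hn⟩ := hP.card_orbit c₀
        have hn0 : n ≠ 0 := by
          rintro rfl
          rw [pow_zero, Nat.card_eq_one_iff_unique] at hn
          obtain ⟨hsub, _⟩ := hn
          apply hc2
          intro v hv
          have := hsub.elim (⟨(⟨v, hv⟩ : P) • c₀, MulAction.mem_orbit _ _⟩ : orbit P c₀)
            ⟨c₀, MulAction.mem_orbit_self _⟩
          exact congrArg Subtype.val this
        have h3 : p ∣ Nat.card (orbit P c₀) := by
          rw [hn]
          exact dvd_pow_self p hn0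
        rw [hcard]
        exact (Nat.modEq_zero_iff_dvd).1 (hmod.symm.trans ((Nat.modEq_zero_iff_dvd).2 h3))
      obtain ⟨k, hk⟩ := hpT
      rw [hk, pow_mul, hpow c₀ hc1 (by push Not at hc2; exact hc2), one_pow]
  rw [h1, h2, mul_one]

/-- **Grün's first theorem**, general form. -/
theorem grun {p : ℕ} [Fact p.Prime] (P : Sylow p G) (D : Subgroup G)
    (hN : (P : Subgroup G) ⊓ ⁅normalizer ((P : Subgroup G) : Set G), normalizer ((P : Subgroup G) : Set G)⁆ ≤ D)
    (hz : ∀ z : G, (P : Subgroup G) ⊓ (⁅(P : Subgroup G), (P : Subgroup G)⁆).map (MulAut.conj z).toMonoidHom ≤ D) :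
    (P : Subgroup G) ⊓ commutator G ≤ D := by
  classical
  have := Fintype.ofFinite (G ⧸ (P : Subgroup G))
  have hcomm : ⁅(P : Subgroup G), (P : Subgroup G)⁆ ≤ D := by
    have := hz 1
    refine le_trans (le_inf ?_ ?_) this
    · exact Subgroup.commutator_le_self _
    · intro x hx
      exact ⟨x, hx, by simp⟩
  -- the target
  let N : Subgroup (P : Subgroup G) := D.subgroupOf P
  let A := Abelianization (P : Subgroup G) ⧸ N.map Abelianization.of
  let φ : (P : Subgroup G) →* A := (QuotientGroup.mk' (N.map Abelianization.of)).comp Abelianization.of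
  have hφ : ∀ x : (P : Subgroup G), φ x = 1 ↔ (x : G) ∈ D := by
    intro x
    change QuotientGroup.mk' (N.map Abelianization.of) (Abelianization.of x) = 1 ↔ _
    rw [QuotientGroup.mk'_apply, QuotientGroup.eq_one_iff]
    constructor
    · rintro ⟨y, hy, hxy⟩
      have h1 : y⁻¹ * x ∈ commutator (P : Subgroup G) := by
        rw [← Abelianization.ker_of, MonoidHom.mem_ker, map_mul, map_inv, hxy, inv_mul_cancel]
      have h2 : ((y⁻¹ * x : (P : Subgroup G)) : G) ∈ D := by
        apply hcomm
        rw [← Subgroup.map_subtype_commutator]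
        exact ⟨_, h1, rfl⟩
      have h3 : (x : G) = y * ((y⁻¹ * x : (P : Subgroup G)) : G) := by
        push_cast; group
      rw [h3]
      exact D.mul_mem hy h2
    · intro h
      exact ⟨x, h, rfl⟩
  have hφeq : ∀ x y : (P : Subgroup G), (x : G)⁻¹ * y ∈ D → φ y = φ x := by
    intro x y h
    have h1 : φ (x⁻¹ * y) = 1 := (hφ _).2 (by push_cast; exact h)
    rw [map_mul, map_inv] at h1
    exact (inv_mul_eq_one.1 h1).symm
  have main : ∀ n : ℕ, ∀ u : G, u ∈ (P : Subgroup G) → u ∈ commutator G → orderOf u = n → u ∈ D := by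
    intro n
    induction n using Nat.strong_induction_on with
    | _ n IH =>
    intro u hu huc hun
    by_cases hu1 : u = 1
    · rw [hu1]; exact D.one_mem
    have IH' : ∀ w ∈ (P : Subgroup G), w ∈ commutator G → orderOf w < orderOf u → w ∈ D := by
      intro w hw hwc hlt
      exact IH _ (hun ▸ hlt) w hw hwc rfl
    have hpowmem : ∀ (x : G) (k : ℕ), 1 < k → k ∣ orderOf u → x⁻¹ * u ^ k * x ∈ (P : Subgroup G) →
        x⁻¹ * u ^ k * x ∈ D := by
      intro x k hk hkd hx
      refine IH' _ hx ?_ ?_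
      · have := (inferInstance : (commutator G).Normal).conj_mem _ ((commutator G).pow_mem huc k) x⁻¹
        simpa using this
      · have h1 : orderOf (x⁻¹ * u ^ k * x) = orderOf (u ^ k) := by
          have := (MulAut.conj x⁻¹).orderOf_eq (u ^ k)
          simpa using this
        rw [h1, orderOf_pow_of_dvd (by omega) hkd]
        exact Nat.div_lt_self (orderOf_pos u) hk
    have hT : MonoidHom.transfer φ u = 1 := by
      have h1 : commutator G ≤ (MonoidHom.transfer φ).ker := Abelianization.commutator_subset_ker _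
      exact h1 huc
    rw [transfer_eq_prod_fixed φ u (fun x k hk hkd hx => (hφ _).2 (hpowmem x k hk hkd hx))] at hT
    obtain ⟨r, hr⟩ := P.isPGroup' ⟨u, hu⟩
    have hr' : u ^ p ^ r = 1 := congrArg Subtype.val hr
    have hpu : p ∣ orderOf u := by
      have h1 : orderOf u ∣ p ^ r := orderOf_dvd_of_pow_eq_one hr'
      obtain ⟨j, hj, hj2⟩ := (Nat.dvd_prime_pow (Fact.out : p.Prime)).1 h1
      rw [hj2]
      apply dvd_pow_self
      rintro rfl
      rw [pow_zero, orderOf_eq_one_iff] at hj2
      exact hu1 hj2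
    rw [prod_fixed P.isPGroup' hu (fun c => psi φ (c.out⁻¹ * u * c.out)) (φ ⟨u, hu⟩)] at hT
    · have hcop : Nat.Coprime (p ^ r) (Nat.card (MulAction.fixedPoints P (G ⧸ (P : Subgroup G)))) := by
        apply Nat.Coprime.pow_left
        rw [Nat.Prime.coprime_iff_not_dvd Fact.out]
        intro h
        have h1 := P.isPGroup'.card_modEq_card_fixedPoints (G ⧸ (P : Subgroup G))
        have h2 := h1.trans ((Nat.modEq_zero_iff_dvd).2 h)
        exact P.not_dvd_index ((Nat.modEq_zero_iff_dvd).1 h2)
      have h1 : φ ⟨u, hu⟩ ^ p ^ r = 1 := by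
        rw [← map_pow, hr, map_one]
      have h2 : orderOf (φ ⟨u, hu⟩) ∣ 1 := by
        rw [← Nat.Coprime.gcd_eq_one hcop]
        exact Nat.dvd_gcd (orderOf_dvd_of_pow_eq_one h1) (orderOf_dvd_of_pow_eq_one hT)
      exact (hφ ⟨u, hu⟩).1 (orderOf_eq_one_iff.1 (Nat.dvd_one.1 h2))
    · -- fixed points of P
      intro c hc
      have h1 := conj_mem_of_smul_eq (hc u hu)
      rw [psi_of_mem φ h1]
      apply hφeq
      apply hN
      have hcn : c.out ∈ normalizer ((P : Subgroup G) : Set G) := by
        have h2 : ∀ v ∈ (P : Subgroup G), c.out⁻¹ * v * c.out ∈ (P : Subgroup G) :=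
          fun v hv => conj_mem_of_smul_eq (hc v hv)
        have h3 : c.out⁻¹ ∈ normalizer ((P : Subgroup G) : Set G) := by
          rw [Subgroup.mem_normalizer_iff_map_conj_eq]
          apply Subgroup.eq_of_le_of_card_ge
          · rintro _ ⟨v, hv, rfl⟩
            simpa using h2 v hv
          · rw [Subgroup.card_map_of_injective]
            exact (MulAut.conj c.out⁻¹).injective
        simpa using (normalizer ((P : Subgroup G) : Set G)).inv_mem h3
      refine ⟨(P : Subgroup G).mul_mem ((P : Subgroup G).inv_mem hu) h1, ?_⟩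
      have h4 : u⁻¹ * (c.out⁻¹ * u * c.out) = ⁅u⁻¹, c.out⁻¹⁆ := by
        rw [commutatorElement_def]; group
      change u⁻¹ * (c.out⁻¹ * u * c.out) ∈ _
      rw [h4]
      exact Subgroup.commutator_mem_commutator
        (Subgroup.inv_mem _ (Subgroup.le_normalizer hu)) (Subgroup.inv_mem _ hcn)
    · intro c v hv hc hvc
      have h1 := conj_mem_of_smul_eq hc
      have h2 := conj_mem_of_smul_eq hvc
      rw [psi_of_mem φ h1, psi_of_mem φ h2]
      apply hφeq
      set x := c.out with hx
      set y := (v • c).out with hy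
      have hw : (v * x)⁻¹ * y ∈ (P : Subgroup G) := by
        rw [← QuotientGroup.eq]
        have h3 : ((v * x : G) : G ⧸ (P : Subgroup G)) = v • c := by
          conv_rhs => rw [← QuotientGroup.out_eq' c]
          rfl
        rw [h3, hy, QuotientGroup.out_eq']
      have ht : x⁻¹ * v⁻¹ * u * v * x ∈ (P : Subgroup G) := by
        have h4 : x⁻¹ * v⁻¹ * u * v * x = ((v * x)⁻¹ * y) * (y⁻¹ * u * y) * ((v * x)⁻¹ * y)⁻¹ := by group
        rw [h4]
        exact mul_mem (mul_mem hw h2) ((P : Subgroup G).inv_mem hw)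
      have h5 : (x⁻¹ * u * x)⁻¹ * (x⁻¹ * v⁻¹ * u * v * x) ∈ D := by
        apply hz x⁻¹
        refine ⟨mul_mem ((P : Subgroup G).inv_mem h1) ht, ⁅u⁻¹, v⁻¹⁆, ?_, ?_⟩
        · exact Subgroup.commutator_mem_commutator ((P : Subgroup G).inv_mem hu) ((P : Subgroup G).inv_mem hv)
        · simp only [MulEquiv.coe_toMonoidHom, MulAut.conj_apply, commutatorElement_def]
          group
      have h6 : (x⁻¹ * v⁻¹ * u * v * x)⁻¹ * (y⁻¹ * u * y) ∈ D := by
        apply hcomm
        have h7 : (x⁻¹ * v⁻¹ * u * v * x)⁻¹ * (y⁻¹ * u * y) =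
            ⁅(x⁻¹ * v⁻¹ * u * v * x)⁻¹, ((v * x)⁻¹ * y)⁻¹⁆ := by
          rw [commutatorElement_def]; group
        rw [h7]
        exact Subgroup.commutator_mem_commutator ((P : Subgroup G).inv_mem ht) ((P : Subgroup G).inv_mem hw)
      have h8 := mul_mem h5 h6
      have h9 : (x⁻¹ * u * x)⁻¹ * (x⁻¹ * v⁻¹ * u * v * x) * ((x⁻¹ * v⁻¹ * u * v * x)⁻¹ * (y⁻¹ * u * y)) =
        (x⁻¹ * u * x)⁻¹ * (y⁻¹ * u * y) := by group
      rw [h9] at h8
      exact h8
    · intro c hc _
      have h1 := conj_mem_of_smul_eq hc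
      rw [psi_of_mem φ h1, ← map_pow, hφ]
      have h2 : ((⟨c.out⁻¹ * u * c.out, h1⟩ : (P : Subgroup G)) ^ p : G) = c.out⁻¹ * u ^ p * c.out := by
        change (c.out⁻¹ * u * c.out) ^ p = _
        have := (map_pow (MulAut.conj c.out⁻¹) u p).symm
        simpa using this
      have h3 : c.out⁻¹ * u ^ p * c.out ∈ (P : Subgroup G) := by
        rw [← h2]; exact Subgroup.pow_mem _ h1 p
      have h4 := hpowmem c.out p (Fact.out : p.Prime).one_lt hpu h3
      rw [← h2] at h4
      exact h4
  intro u hu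
  exact main _ u hu.1 hu.2 rfl

end Cfsg.Agent.Lib.H70Grun
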