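import Cfsg.Agent.Lib.GLThreeInv
import Cfsg.Agent.Lib.H70Grun
import Cfsg.Agent.Lib.H32PGroup
import Cfsg.Prelude.Def_Transfer

/-!
# Sylow 2-subgroups inside `GL₃(odd)` with a subgroup `2³` (helper80)
-/

set_option autoImplicit false

open Matrix Subgroup
open scoped commutatorElement

namespace Cfsg.Agent.Lib.GLThreeInvB

open Cfsg.Agent.Lib.GLThreeInv

variable {F : Type*} [Field F]

theorem exists_neg_one {X : Type*} [Group X] [Finite X] (h2 : (2 : F) ≠ 0) (f : X →* GL (Fin 3) F)
    (hf : Function.Injective f) (E : Subgroup X) (hE2 : ∀ e ∈ E, e * e = 1)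
    (hEc : ∀ a ∈ E, ∀ b ∈ E, a * b = b * a) (hE8 : Nat.card E = 8) :
    ∃ u ∈ E, (f u : Matrix (Fin 3) (Fin 3) F) = -1 := by
  classical
  by_contra hno
  push Not at hno
  let m : X → Matrix (Fin 3) (Fin 3) F := fun x => (f x : Matrix (Fin 3) (Fin 3) F)
  have mm : ∀ x y, m (x * y) = m x * m y := fun x y => by simp [m]
  have m1 : m 1 = 1 := by simp [m]
  have minj : ∀ x y, m x = m y → x = y := fun x y h => hf (Units.ext h)
  let δ : X → F := fun x => (m x).det
  have δm : ∀ x y, δ (x * y) = δ x * δ y := fun x y => by simp only [δ]; rw [mm, Matrix.det_mul]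
  have δ1 : δ 1 = 1 := by simp only [δ]; rw [m1, Matrix.det_one]
  have δ2 : ∀ e ∈ E, δ e * δ e = 1 := fun e he => by rw [← δm, hE2 e he, δ1]
  let g : X → Matrix (Fin 3) (Fin 3) F := fun x => δ x • m x
  have gm : ∀ x y, g (x * y) = g x * g y := fun x y => by
    simp only [g]
    rw [δm, mm, Matrix.smul_mul, Matrix.mul_smul, smul_smul]
  have g1 : g 1 = 1 := by simp only [g]; rw [δ1, m1, one_smul]
  have g2 : ∀ e ∈ E, g e * g e = 1 := fun e he => by rw [← gm, hE2 e he, g1]
  have gd : ∀ e ∈ E, (g e).det = 1 := fun e he => by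
    simp only [g]
    rw [Matrix.det_smul, Fintype.card_fin]
    have h := δ2 e he
    show δ e ^ 3 * δ e = 1
    calc δ e ^ 3 * δ e = (δ e * δ e) * (δ e * δ e) := by ring
      _ = 1 := by rw [h, one_mul]
  have gk : ∀ e ∈ E, g e = 1 → e = 1 := by
    intro e he h
    have h3 : m e = δ e • (1 : Matrix (Fin 3) (Fin 3) F) := by
      rw [← h]
      simp only [g]
      rw [smul_smul, δ2 e he, one_smul]
    have h4 : (δ e - 1) * (δ e + 1) = 0 := by
      have := δ2 e he
      linear_combination this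
    rcases mul_eq_zero.1 h4 with h5 | h5
    · have h6 : δ e = 1 := by linear_combination h5
      rw [h6, one_smul, ← m1] at h3
      exact minj _ _ h3
    · exfalso
      have h6 : δ e = -1 := by linear_combination h5
      rw [h6, neg_smul, one_smul] at h3
      exact hno e he h3
  have gi : ∀ a ∈ E, ∀ b ∈ E, g a = g b → a = b := by
    intro a ha b hb h
    have h3 : g (a * b) = 1 := by rw [gm, h, g2 b hb]
    have h4 := gk _ (E.mul_mem ha hb) h3
    calc a = a * (b * b) := by rw [hE2 b hb, mul_one]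
      _ = (a * b) * b := by rw [mul_assoc]
      _ = b := by rw [h4, one_mul]
  have hcardE : (E : Set X).ncard = 8 := by
    rw [← Nat.card_coe_set_eq]; exact hE8
  have pick : ∀ s : Finset X, s.card ≤ 4 → ∃ c ∈ E, c ∉ s := by
    intro s hs
    obtain ⟨c, hc, hc'⟩ := Set.exists_mem_notMem_of_ncard_lt_ncard (s := (s : Set X)) (t := (E : Set X))
      (by rw [hcardE, Set.ncard_coe_finset]; omega) (Set.toFinite _)
    exact ⟨c, hc, by simpa using hc'⟩
  obtain ⟨a, ha, ha'⟩ := pick {1} (by simp)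
  obtain ⟨b, hb, hb'⟩ := pick {1, a} ((Finset.card_le_two).trans (by norm_num))
  obtain ⟨c, hc, hc'⟩ := pick {1, a, b, a * b} Finset.card_le_four
  simp only [Finset.mem_singleton] at ha'
  simp only [Finset.mem_insert, Finset.mem_singleton, not_or] at hb' hc'
  refine no_three h2 (g2 a ha) (g2 b hb) (g2 c hc) (gd a ha) (gd b hb) (gd c hc) (fun h => ha' (gk a ha h))
    (fun h => hb'.1 (gk b hb h)) (fun h => hc'.1 (gk c hc h)) (fun h => hb'.2 (gi a ha b hb h).symm)
    (fun h => hc'.2.1 (gi a ha c hc h).symm) (fun h => hc'.2.2.1 (gi b hb c hc h).symm) ?_ ?_ ?_ ?_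
  · intro h
    rw [← gm] at h
    have h3 := gi a ha _ (E.mul_mem hb hc) h
    apply hc'.2.2.2
    calc c = (b * b) * c := by rw [hE2 b hb, one_mul]
      _ = b * (b * c) := by rw [mul_assoc]
      _ = b * a := by rw [← h3]
      _ = a * b := hEc b hb a ha
  · rw [← gm, ← gm, hEc a ha b hb]
  · rw [← gm, ← gm, hEc a ha c hc]
  · rw [← gm, ← gm, hEc b hb c hc]

theorem eq_of_central {X : Type*} [Group X] (h2 : (2 : F) ≠ 0) (f : X →* GL (Fin 3) F)
    (hf : Function.Injective f) (hX : ¬ ∀ x y : X, x * y = y * x) {z w : X} (hz : z * z = 1) (hz1 : z ≠ 1)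
    (hzd : (f z : Matrix (Fin 3) (Fin 3) F).det = 1) (hzc : ∀ x, x * z = z * x) (hw : w * w = 1) (hw1 : w ≠ 1)
    (hwd : (f w : Matrix (Fin 3) (Fin 3) F).det = 1) (hwc : ∀ x, x * w = w * x) : w = z := by
  by_contra hne
  apply hX
  intro x y
  apply hf
  apply Units.ext
  rw [map_mul, map_mul, Units.val_mul, Units.val_mul]
  have cm : ∀ a b : X, a * b = b * a → (f a : Matrix (Fin 3) (Fin 3) F) * f b = f b * f a := by
    intro a b h
    rw [← Units.val_mul, ← Units.val_mul, ← map_mul, ← map_mul, h]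
  have n1 : ∀ a : X, a ≠ 1 → (f a : Matrix (Fin 3) (Fin 3) F) ≠ 1 := by
    intro a ha h
    apply ha
    apply hf
    rw [map_one]
    exact Units.ext h
  have sq : ∀ a : X, a * a = 1 → (f a : Matrix (Fin 3) (Fin 3) F) * f a = 1 := by
    intro a ha
    rw [← Units.val_mul, ← map_mul, ha, map_one, Units.val_one]
  exact comm_of_comm h2 (sq w hw) (sq z hz) hwd hzd (n1 w hw1) (n1 z hz1)
    (fun h => hne (hf (Units.ext h))) (cm _ _ (hzc w)) (cm _ _ (hwc x)) (cm _ _ (hzc x)) (cm _ _ (hwc y))
    (cm _ _ (hzc y))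

theorem exists_index_two_of_hom {G : Type*} [Group G] [Finite G] {F : Type*} [Field F] [Finite F]
    (T : G →* Fˣ) {u : G} (hu : T u ≠ 1) (hu2 : T u ^ 2 = 1) : ∃ H : Subgroup G, H.index = 2 := by
  let R := T.range
  have hcyc : IsCyclic R := inferInstance
  obtain ⟨g, hg⟩ := hcyc.exists_generator
  have hord : orderOf g = Nat.card R := orderOf_eq_card_of_forall_mem_zpowers hg
  have h2 : 2 ∣ Nat.card R := by
    have h3 : orderOf (⟨T u, ⟨u, rfl⟩⟩ : R) = 2 := by
      apply orderOf_eq_prime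
      · exact Subtype.ext hu2
      · intro h; exact hu (congrArg Subtype.val h)
    rw [← h3]
    exact orderOf_dvd_natCard _
  have hidx : (zpowers (g ^ 2)).index = 2 := by
    have h4 := (zpowers (g ^ 2)).card_mul_index
    rw [Nat.card_zpowers, orderOf_pow_of_dvd (by norm_num) (by rw [hord]; exact h2), hord] at h4
    obtain ⟨k, hk⟩ := h2
    have hpos : 0 < Nat.card R := Nat.card_pos
    rw [hk, Nat.mul_div_cancel_left _ (by norm_num)] at h4
    have hk0 : 0 < k := by
      rcases Nat.eq_zero_or_pos k with h | h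
      · rw [h] at hk; omega
      · exact h
    rw [mul_comm 2 k] at h4
    exact Nat.eq_of_mul_eq_mul_left hk0 h4
  refine ⟨(zpowers (g ^ 2)).comap T.rangeRestrict, ?_⟩
  rw [Subgroup.index_comap_of_surjective _ T.rangeRestrict_surjective, hidx]

theorem main {G : Type*} [Group G] [Finite G] (hG : ∀ H : Subgroup G, H.index ≠ 2) (X : Sylow 2 G)
    {F : Type*} [Field F] [Finite F] (h2 : (2 : F) ≠ 0)
    (f : ↥(X : Subgroup G) →* GL (Fin 3) F) (hf : Function.Injective f)
    (E : Subgroup G) (hE : E ≤ (X : Subgroup G)) (hEc : ∀ a ∈ E, ∀ b ∈ E, a * b = b * a)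
    (hE2 : ∀ e ∈ E, e * e = 1) (hE8 : Nat.card E = 8) :
    ∀ x y : ↥(X : Subgroup G), x * y = y * x := by
  classical
  by_contra hX
  have hXp : IsPGroup 2 (X : Subgroup G) := X.isPGroup'
  -- the element `-1`
  obtain ⟨u, huE, hu⟩ := exists_neg_one h2 f hf (E.subgroupOf X)
    (by
      intro e he
      exact Subtype.ext (hE2 e he))
    (by
      intro a ha b hb
      exact Subtype.ext (hEc a ha b hb))
    (by rw [Nat.card_congr (Subgroup.subgroupOfEquivOfLe hE).toEquiv, hE8])
  have huc : ∀ x, x * u = u * x := by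
    intro x
    apply hf
    apply Units.ext
    rw [map_mul, map_mul, Units.val_mul, Units.val_mul, hu]
    simp
  have hu2 : u * u = 1 := Subtype.ext (hE2 u huE)
  -- the determinant character
  let φ : ↥(X : Subgroup G) →* Fˣ := Matrix.GeneralLinearGroup.det.comp f
  have hφ : ∀ x, ((φ x : Fˣ) : F) = (f x : Matrix (Fin 3) (Fin 3) F).det := fun x => rfl
  have hφu : φ u = -1 := by
    apply Units.ext
    rw [hφ, hu, Matrix.det_neg, Matrix.det_one, Fintype.card_fin]
    simp
    norm_num
  have hneg : (-1 : Fˣ) ≠ 1 := by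
    intro h
    apply h2
    have := congrArg Units.val h
    simp only [Units.val_neg, Units.val_one] at this
    linear_combination -this
  have hφc : ∀ x : ↥(X : Subgroup G), x ∈ commutator ↥(X : Subgroup G) → φ x = 1 := by
    intro x hx
    exact (Abelianization.commutator_subset_ker φ) hx
  -- the commutator subgroup
  have hcne : commutator ↥(X : Subgroup G) ≠ ⊥ := by
    intro h
    apply hX
    intro x y
    have h3 : ⁅x, y⁆ ∈ commutator ↥(X : Subgroup G) :=
      Subgroup.commutator_mem_commutator (Subgroup.mem_top _) (Subgroup.mem_top _)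
    rw [h, Subgroup.mem_bot] at h3
    exact commutatorElement_eq_one_iff_mul_comm.1 h3
  obtain ⟨z₀, hz₀c, hz₀1, hz₀Z⟩ := Lib.H32PGroup.exists_mem_center_of_normal hXp _ hcne
  obtain ⟨z, hzc, hz1, hz2, hzZ⟩ : ∃ z ∈ commutator ↥(X : Subgroup G), z ≠ 1 ∧ z * z = 1 ∧
      z ∈ Subgroup.center ↥(X : Subgroup G) := by
    obtain ⟨k, hk⟩ := (IsPGroup.iff_orderOf.1 hXp) z₀
    have hk0 : k ≠ 0 := by
      rintro rfl
      rw [pow_zero, orderOf_eq_one_iff] at hk
      exact hz₀1 hk
    obtain ⟨j, rfl⟩ := Nat.exists_eq_succ_of_ne_zero hk0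
    refine ⟨z₀ ^ (2 ^ j), Subgroup.pow_mem _ hz₀c _, ?_, ?_, Subgroup.pow_mem _ hz₀Z _⟩
    · intro h
      have := orderOf_dvd_of_pow_eq_one h
      rw [hk] at this
      have := Nat.le_of_dvd (by positivity) this
      rw [pow_succ] at this
      have : 0 < 2 ^ j := by positivity
      omega
    · rw [← pow_two, ← pow_mul, ← pow_succ, ← Nat.succ_eq_add_one, ← hk, pow_orderOf_eq_one]
  have hzd : (f z : Matrix (Fin 3) (Fin 3) F).det = 1 := by
    rw [← hφ, hφc z hzc, Units.val_one]
  have hzc' : ∀ x, x * z = z * x := fun x => (Subgroup.mem_center_iff.1 hzZ x)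
  -- central involutions outside the commutator subgroup
  have hout : ∀ w : ↥(X : Subgroup G), w * w = 1 → w ≠ 1 → (∀ x, x * w = w * x) →
      w ∉ commutator ↥(X : Subgroup G) → φ w = -1 := by
    intro w hw hw1 hwc hwn
    have h3 : φ w * φ w = 1 := by rw [← map_mul, hw, map_one]
    have h4 : ((φ w : Fˣ) : F) * φ w = 1 := by
      have := congrArg Units.val h3
      simpa using this
    have h5 : (((φ w : Fˣ) : F) - 1) * (((φ w : Fˣ) : F) + 1) = 0 := by linear_combination h4
    rcases mul_eq_zero.1 h5 with h6 | h6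
    · exfalso
      have h7 : ((φ w : Fˣ) : F) = 1 := by linear_combination h6
      apply hwn
      rw [eq_of_central h2 f hf hX hz2 hz1 hzd hzc' hw hw1 (by rw [← hφ]; exact h7) hwc]
      exact hzc
    · apply Units.ext
      rw [Units.val_neg, Units.val_one]
      linear_combination h6
  have hun : u ∉ commutator ↥(X : Subgroup G) := by
    intro h
    rw [hφc u h] at hφu
    exact hneg hφu.symm
  have hu1 : u ≠ 1 := by
    intro h
    apply hun
    rw [h]; exact Subgroup.one_mem _
  have hoG : orderOf (u : G) = 2 := by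
    apply orderOf_eq_prime
    · rw [pow_two]; exact congrArg Subtype.val hu2
    · intro h; exact hu1 (Subtype.ext h)
  have : Fintype (G ⧸ (X : Subgroup G)) := Fintype.ofFinite _
  have huG : (u : G) * u = 1 := congrArg Subtype.val hu2
  -- transfer
  have htr := Lib.H70Grun.transfer_eq_prod_fixed φ (u : G) (by
    intro x k hk hkd hx
    rw [hoG] at hkd
    have hk2 : k = 2 := by
      have := Nat.le_of_dvd (by norm_num) hkd
      omega
    subst hk2
    have : (⟨x⁻¹ * (u : G) ^ 2 * x, hx⟩ : ↥(X : Subgroup G)) = 1 := by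
      apply Subtype.ext
      simp [pow_two, huG]
    rw [this, map_one])
  have hsq : ∀ c : G ⧸ (X : Subgroup G), (c.out⁻¹ * (u : G) * c.out) * (c.out⁻¹ * (u : G) * c.out) = 1 := by
    intro c
    have : (c.out⁻¹ * (u : G) * c.out) * (c.out⁻¹ * (u : G) * c.out) = c.out⁻¹ * ((u : G) * u) * c.out := by group
    rw [this, huG]; group
  have hcomm : commutator ↥(X : Subgroup G) = (⁅(X : Subgroup G), (X : Subgroup G)⁆).subgroupOf X := by
    rw [← Subgroup.map_subtype_commutator, Subgroup.subgroupOf,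
      Subgroup.comap_map_eq_self_of_injective (Subgroup.subtype_injective _)]
  rw [Lib.H70Grun.prod_fixed hXp u.2 (fun c => Lib.H70Grun.psi φ (c.out⁻¹ * (u : G) * c.out)) (-1 : Fˣ)
    ?_ ?_ ?_] at htr
  · -- conclusion
    have hodd : ¬ 2 ∣ Nat.card (MulAction.fixedPoints (X : Subgroup G) (G ⧸ (X : Subgroup G))) := by
      have h3 := hXp.card_modEq_card_fixedPoints (G ⧸ (X : Subgroup G))
      have h4 : ¬ 2 ∣ Nat.card (G ⧸ (X : Subgroup G)) := by
        have := X.not_dvd_index
        rwa [Subgroup.index_eq_card] at this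
      intro h5
      exact h4 ((Nat.modEq_zero_iff_dvd).1 (h3.trans ((Nat.modEq_zero_iff_dvd).2 h5)))
    rw [(Nat.not_even_iff_odd.1 (fun h => hodd h.two_dvd)).neg_one_pow] at htr
    obtain ⟨H, hH⟩ := exists_index_two_of_hom (MonoidHom.transfer φ) (u := (u : G)) (by rw [htr]; exact hneg)
      (by rw [htr]; norm_num)
    exact hG H hH
  · intro c hc
    set y := c.out with hy
    have hyc : (y : G ⧸ (X : Subgroup G)) = c := QuotientGroup.out_eq' c
    have hyN : ∀ v ∈ (X : Subgroup G), y⁻¹ * v * y ∈ (X : Subgroup G) := by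
      intro v hv
      exact Lib.H70Grun.conj_mem_of_smul_eq (hc v hv)
    have hyN2 : y ∈ normalizer ((X : Subgroup G) : Set G) := by
      have h3 : (X : Subgroup G).map (MulAut.conj y⁻¹).toMonoidHom = X := by
        apply Subgroup.eq_of_le_of_card_ge
        · rintro _ ⟨v, hv, rfl⟩
          have := hyN v hv
          simpa using this
        · rw [Nat.card_congr ((X : Subgroup G).equivMapOfInjective (MulAut.conj y⁻¹).toMonoidHom
            (MulAut.conj y⁻¹).injective).toEquiv]
      rw [← inv_mem_iff, Subgroup.mem_normalizer_iff]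
      intro w
      constructor
      · intro hw
        have := hyN w hw
        simpa using this
      · intro hw
        rw [inv_inv] at hw
        rw [← h3] at hw
        obtain ⟨v, hv, he⟩ := hw
        have he' : y⁻¹ * v * y⁻¹⁻¹ = y⁻¹ * w * y := he
        rw [inv_inv] at he'
        have : v = w := mul_left_cancel (mul_right_cancel he')
        rw [← this]; exact hv
    have hmem : y⁻¹ * (u : G) * y ∈ (X : Subgroup G) := hyN u u.2
    rw [Lib.H70Grun.psi_of_mem φ hmem]
    apply hout
    · exact Subtype.ext (hsq c)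
    · intro h
      have h3 : y⁻¹ * (u : G) * y = 1 := congrArg Subtype.val h
      apply hu1
      apply Subtype.ext
      calc (u : G) = y * (y⁻¹ * (u : G) * y) * y⁻¹ := by group
        _ = 1 := by rw [h3]; group
    · intro x
      apply Subtype.ext
      show (x : G) * (y⁻¹ * (u : G) * y) = (y⁻¹ * (u : G) * y) * x
      have h3 : y * (x : G) * y⁻¹ ∈ (X : Subgroup G) := (Subgroup.mem_normalizer_iff.1 hyN2 _).1 x.2
      have h4 : (y * (x : G) * y⁻¹) * u = u * (y * (x : G) * y⁻¹) :=
        congrArg Subtype.val (huc ⟨_, h3⟩)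
      calc (x : G) * (y⁻¹ * (u : G) * y) = y⁻¹ * ((y * (x : G) * y⁻¹) * u) * y := by group
        _ = y⁻¹ * (u * (y * (x : G) * y⁻¹)) * y := by rw [h4]
        _ = _ := by group
    · intro h
      apply hun
      rw [hcomm, Subgroup.mem_subgroupOf] at h ⊢
      have h3 : (⁅(X : Subgroup G), (X : Subgroup G)⁆).map (MulAut.conj y).toMonoidHom =
          ⁅(X : Subgroup G), (X : Subgroup G)⁆ := by
        have h5 : (X : Subgroup G).map (MulAut.conj y).toMonoidHom = X := by
          apply Subgroup.eq_of_le_of_card_ge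
          · rintro _ ⟨v, hv, rfl⟩
            have := (Subgroup.mem_normalizer_iff.1 hyN2 v).1 hv
            simpa using this
          · rw [Nat.card_congr ((X : Subgroup G).equivMapOfInjective (MulAut.conj y).toMonoidHom
              (MulAut.conj y).injective).toEquiv]
        rw [Subgroup.map_commutator, h5]
      rw [← h3]
      refine ⟨y⁻¹ * (u : G) * y, h, ?_⟩
      show y * (y⁻¹ * (u : G) * y) * y⁻¹ = u
      group
  · intro c v hv hc hvc
    obtain ⟨h, hh⟩ := QuotientGroup.mk_out_eq_mul (X : Subgroup G) (v * c.out)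
    have hvc' : v • c = ((v * c.out : G) : G ⧸ (X : Subgroup G)) := by
      conv_lhs => rw [← QuotientGroup.out_eq' c]
      rfl
    have hm1 : c.out⁻¹ * (u : G) * c.out ∈ (X : Subgroup G) := Lib.H70Grun.conj_mem_of_smul_eq hc
    have hm2 : (v • c).out⁻¹ * (u : G) * (v • c).out ∈ (X : Subgroup G) := Lib.H70Grun.conj_mem_of_smul_eq hvc
    rw [Lib.H70Grun.psi_of_mem φ hm1, Lib.H70Grun.psi_of_mem φ hm2]
    have he : (⟨(v • c).out⁻¹ * (u : G) * (v • c).out, hm2⟩ : ↥(X : Subgroup G)) =
        h⁻¹ * ⟨c.out⁻¹ * (u : G) * c.out, hm1⟩ * h := by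
      apply Subtype.ext
      show (v • c).out⁻¹ * (u : G) * (v • c).out = (h : G)⁻¹ * (c.out⁻¹ * (u : G) * c.out) * h
      rw [hvc', hh]
      have h4 : v * (u : G) = u * v := congrArg Subtype.val (huc ⟨v, hv⟩)
      calc (v * c.out * (h : G))⁻¹ * (u : G) * (v * c.out * (h : G))
          = (h : G)⁻¹ * c.out⁻¹ * v⁻¹ * (u * v) * c.out * h := by group
        _ = (h : G)⁻¹ * c.out⁻¹ * v⁻¹ * (v * u) * c.out * h := by rw [h4]
        _ = _ := by group
    rw [he, map_mul, map_mul, map_inv, mul_comm, mul_inv_cancel_left]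
  · intro c hc _
    have hm1 : c.out⁻¹ * (u : G) * c.out ∈ (X : Subgroup G) := Lib.H70Grun.conj_mem_of_smul_eq hc
    rw [Lib.H70Grun.psi_of_mem φ hm1, ← map_pow, pow_two]
    have : (⟨c.out⁻¹ * (u : G) * c.out, hm1⟩ : ↥(X : Subgroup G)) * ⟨c.out⁻¹ * (u : G) * c.out, hm1⟩ = 1 :=
      Subtype.ext (hsq c)
    rw [this, map_one]

end Cfsg.Agent.Lib.GLThreeInvB
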