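import Mathlib
import Cfsg.Agent.Lib.PBKill
import Cfsg.Agent.Lib.PBRat
import Cfsg.Agent.Lib.PBRatS
import Cfsg.Agent.Lib.ColTools4

/-!
# Characters of a simple group of order 6048: general tools (helper11)
-/

set_option autoImplicit false
set_option linter.all false

namespace Cfsg.Agent.Lib.GT27ChA

open Cfsg Subgroup Cfsg.Agent.Lib.CharBasic Cfsg.Agent.Lib.A7Fix
open Representation Module Cfsg.Agent.Lib.PBStruct
open scoped ComplexConjugate

universe u

variable {G : Type u} [Group G] [Fintype G]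

/-- if the average over a subgroup vanishes then so do all its translates -/
theorem coset_zero {χ : G → ℂ} (hχ : IsCharacter G χ) (A : Subgroup G) (h : ∑ x ∈ F A, χ x = 0) (r : G) :
    ∑ x ∈ F A, χ (x * r) = 0 := by
  classical
  obtain ⟨n, ρ, rfl⟩ := hχ
  rw [sum_F] at h
  have hA : (Nat.card A : ℂ) ≠ 0 := by exact_mod_cast Nat.card_pos.ne'
  have h1 : finrank ℂ (Inv ρ A) = 0 := by
    rcases mul_eq_zero.1 h with h | h
    · exact absurd h hA
    · exact_mod_cast h
  have h2 : Inv ρ A = ⊥ := Submodule.finrank_eq_zero.1 h1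
  have h3 : ∀ v, ∑ x ∈ F A, ρ x v = 0 := by
    intro v
    have h4 : ∑ x ∈ F A, ρ x v ∈ Inv ρ A := by
      rw [mem_Inv]
      intro g hg
      rw [map_sum]
      have h5 : ∀ x ∈ F A, ρ g (ρ x v) = ρ (g * x) v := by
        intro x _
        rw [map_mul]; rfl
      rw [Finset.sum_congr rfl h5]
      refine Finset.sum_bij (fun x _ => g * x) ?_ ?_ ?_ ?_
      · intro x hx; rw [mem_F] at hx ⊢; exact mul_mem hg hx
      · intro x _ y _ hxy; exact mul_left_cancel hxy
      · intro y hy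
        refine ⟨g⁻¹ * y, ?_, ?_⟩
        · rw [mem_F] at hy ⊢; exact mul_mem (inv_mem hg) hy
        · group
      · intro x _; rfl
    rw [h2] at h4
    exact (Submodule.mem_bot ℂ).1 h4
  have h4 : ∑ x ∈ F A, ρ (x * r) = 0 := by
    refine LinearMap.ext fun v => ?_
    rw [LinearMap.sum_apply, LinearMap.zero_apply]
    have h5 : ∀ x ∈ F A, ρ (x * r) v = ρ x (ρ r v) := by
      intro x _
      rw [map_mul]; rfl
    rw [Finset.sum_congr rfl h5]
    exact h3 _
  have h5 := congrArg (LinearMap.trace ℂ _) h4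
  rw [map_sum, map_zero] at h5
  exact h5

/-- an element moving every nontrivial element of a normalised abelian subgroup without trivial constituent -/
theorem zero_of_norm {χ : G → ℂ} (hχ : IsCharacter G χ) (A : Subgroup G) (hab : ∀ x ∈ A, ∀ y ∈ A, x * y = y * x)
    (h : ∑ x ∈ F A, χ x = 0) {r : G} (hr : ∀ x ∈ A, r * x * r⁻¹ ∈ A) (hf : ∀ x ∈ A, Commute r x → x = 1) : χ r = 0 := by
  classical
  have h1 := coset_zero hχ A h r
  let φ : A → A := fun w => ⟨w.1 * (r * w.1 * r⁻¹)⁻¹, mul_mem w.2 (inv_mem (hr _ w.2))⟩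
  have hinj : Function.Injective φ := by
    intro w w' hw
    have h2 : w.1 * (r * w.1 * r⁻¹)⁻¹ = w'.1 * (r * w'.1 * r⁻¹)⁻¹ := congrArg Subtype.val hw
    have h3 : w'.1⁻¹ * w.1 = (r * w'.1 * r⁻¹)⁻¹ * (r * w.1 * r⁻¹) := by
      have h4 : w'.1⁻¹ * w.1 = w'.1⁻¹ * (w.1 * (r * w.1 * r⁻¹)⁻¹) * (r * w.1 * r⁻¹) := by group
      rw [h4, h2]; group
    have h4 : Commute r (w'.1⁻¹ * w.1) := by
      have h5 : r * (w'.1⁻¹ * w.1) = (r * w'.1 * r⁻¹)⁻¹ * (r * w.1 * r⁻¹) * r := by group
      show r * (w'.1⁻¹ * w.1) = (w'.1⁻¹ * w.1) * r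
      rw [h5, ← h3]
    have h5 := hf _ (mul_mem (inv_mem w'.2) w.2) h4
    exact Subtype.ext (inv_mul_eq_one.1 h5).symm
  have hsurj : Function.Surjective φ := Finite.injective_iff_surjective.1 hinj
  have hcf := hχ.isClassFunction
  have h2 : ∀ x ∈ F A, χ (x * r) = χ r := by
    intro x hx
    rw [mem_F] at hx
    obtain ⟨w, hw⟩ := hsurj ⟨x, hx⟩
    have h3 : w.1 * (r * w.1 * r⁻¹)⁻¹ = x := congrArg Subtype.val hw
    have h4 : x * r = w.1 * r * w.1⁻¹ := by rw [← h3]; group
    rw [h4]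
    exact hcf r w.1
  rw [Finset.sum_congr rfl h2, Finset.sum_const, card_F, nsmul_eq_mul] at h1
  have hA : (Nat.card A : ℂ) ≠ 0 := by exact_mod_cast Nat.card_pos.ne'
  exact (mul_eq_zero.1 h1).resolve_left hA

open scoped Classical in
theorem sum_conj_fun (t : G) (g : G → ℂ) : ∑ b : G, g (b * t * b⁻¹) =
    (Nat.card (centralizer ({t} : Set G)) : ℂ) * ∑ w : G, (if IsConj t w then g w else 0) := by
  have h1 : ∀ b : G, g (b * t * b⁻¹) = ∑ w : G, (if b * t * b⁻¹ = w then (1 : ℂ) else 0) * g w := by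
    intro b
    rw [Finset.sum_eq_single (b * t * b⁻¹)]
    · simp
    · intro w _ hw
      rw [if_neg (fun h => hw h.symm), zero_mul]
    · intro h; exact absurd (Finset.mem_univ _) h
  rw [Finset.sum_congr rfl (fun b _ => h1 b), Finset.sum_comm, Finset.mul_sum]
  refine Finset.sum_congr rfl fun w _ => ?_
  rw [← Finset.sum_mul, count_conj]
  split_ifs with h
  · rfl
  · rw [zero_mul, mul_zero]

/-- the class algebra count -/
theorem count (r t s : G) (ht : t * t = 1) :
    (Nat.card {w : G // IsConj t w ∧ IsConj r (w * s)} : ℂ) *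
      ((Nat.card (centralizer ({t} : Set G)) : ℂ) * (Nat.card (centralizer ({r} : Set G)) : ℂ)) =
    Nat.card G * ∑ χ : IrrCharacter G, ((χ : G → ℂ) r * (χ : G → ℂ) t / (χ : G → ℂ) 1) * conj ((χ : G → ℂ) s) := by
  classical
  have h := StructConst.sum_sum_conj (fun g : G => if g = s then (1 : ℂ) else 0) r t
  have hG0 : (Nat.card G : ℂ) ≠ 0 := by exact_mod_cast Nat.card_pos.ne'
  have hti : t⁻¹ = t := inv_eq_of_mul_eq_one_left ht
  have hR : (Nat.card G : ℂ) ^ 2 * ∑ χ : IrrCharacter G,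
        classInner (fun g : G => if g = s then (1 : ℂ) else 0) (χ : G → ℂ) * (χ : G → ℂ) r * conj ((χ : G → ℂ) t) / (χ : G → ℂ) 1 =
      Nat.card G * ∑ χ : IrrCharacter G, ((χ : G → ℂ) r * (χ : G → ℂ) t / (χ : G → ℂ) 1) * conj ((χ : G → ℂ) s) := by
    rw [Finset.mul_sum, Finset.mul_sum]
    refine Finset.sum_congr rfl fun χ _ => ?_
    have h1 : conj ((χ : G → ℂ) t) = (χ : G → ℂ) t := by
      rw [← χ.2.inv t, hti]
    have h2 : classInner (fun g : G => if g = s then (1 : ℂ) else 0) (χ : G → ℂ) = (Nat.card G : ℂ)⁻¹ * conj ((χ : G → ℂ) s) := by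
      rw [classInner_def]
      congr 1
      rw [Finset.sum_eq_single s]
      · simp
      · intro g _ hg; simp [hg]
      · intro h; exact absurd (Finset.mem_univ _) h
    rw [h1, h2]
    field_simp
  rw [← hR, ← h, Finset.sum_comm]
  have hL : ∀ b : G, ∑ a : G, (if a * r * a⁻¹ * (b * t * b⁻¹)⁻¹ = s then (1 : ℂ) else 0) =
      (fun w : G => if IsConj r (w * s) then (Nat.card (centralizer ({r} : Set G)) : ℂ) else 0) (b * t * b⁻¹) := by
    intro b
    have h1 : ∀ a : G, (if a * r * a⁻¹ * (b * t * b⁻¹)⁻¹ = s then (1 : ℂ) else 0) =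
        (if a * r * a⁻¹ = s * (b * t * b⁻¹) then (1 : ℂ) else 0) := by
      intro a
      congr 1
      rw [mul_inv_eq_iff_eq_mul]
    rw [Finset.sum_congr rfl (fun a _ => h1 a), count_conj]
    show (if IsConj r (s * (b * t * b⁻¹)) then _ else _) = (if IsConj r (b * t * b⁻¹ * s) then _ else _)
    have h2 : IsConj (s * (b * t * b⁻¹)) (b * t * b⁻¹ * s) := by
      rw [isConj_iff]
      exact ⟨b * t * b⁻¹, by group⟩
    have h3 : IsConj r (s * (b * t * b⁻¹)) ↔ IsConj r (b * t * b⁻¹ * s) :=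
      ⟨fun h => h.trans h2, fun h => h.trans h2.symm⟩
    simp only [h3]
  rw [Finset.sum_congr rfl (fun b _ => hL b), sum_conj_fun t (fun w : G => if IsConj r (w * s) then (Nat.card (centralizer ({r} : Set G)) : ℂ) else 0)]
  have h4 : ∀ w : G, (if IsConj t w then (if IsConj r (w * s) then (Nat.card (centralizer ({r} : Set G)) : ℂ) else 0) else 0) =
      (if IsConj t w ∧ IsConj r (w * s) then (1 : ℂ) else 0) * (Nat.card (centralizer ({r} : Set G)) : ℂ) := by
    intro w
    by_cases h1 : IsConj t w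
    · by_cases h2 : IsConj r (w * s)
      · rw [if_pos h1, if_pos h2, if_pos ⟨h1, h2⟩, one_mul]
      · rw [if_pos h1, if_neg h2, if_neg (fun h => h2 h.2), zero_mul]
    · rw [if_neg h1, if_neg (fun h => h1 h.1), zero_mul]
  rw [Finset.sum_congr rfl (fun w _ => h4 w), ← Finset.sum_mul, Finset.sum_boole, Nat.card_eq_fintype_card (α := {w : G // IsConj t w ∧ IsConj r (w * s)}),
    Fintype.card_subtype]
  ring

end Cfsg.Agent.Lib.GT27ChA
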