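import Mathlib
import Cfsg.Agent.Lib.GT27ChA

/-!
# Characters of a simple group of order 6048 (helper11)
-/

set_option autoImplicit false
set_option linter.all false

namespace Cfsg.Agent.Lib.GT27Chr

open Cfsg Subgroup Cfsg.Agent.Lib.DefOneLoc Cfsg.Agent.Lib.DefOneOrd Cfsg.Agent.Lib.CharBasic
open Cfsg.Agent.Lib.DefOneGram Cfsg.Agent.Lib.DefOne Cfsg.Agent.Lib.BRB0 Cfsg.Agent.Lib.BRCore
open Cfsg.Agent.Lib.PBData Cfsg.Agent.Lib.DefOnePrin Cfsg.Agent.Lib.BlockThird Cfsg.Agent.Lib.SmallSimple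
open Cfsg.Agent.Lib.PBNum Cfsg.Agent.Lib.PBExt Cfsg.Agent.Lib.PBStruct Cfsg.Agent.Lib.PBFull
open Cfsg.Agent.Lib.PBLocal Cfsg.Agent.Lib.A7Chars Cfsg.Agent.Lib.A7Table Cfsg.Agent.Lib.A7Fix
open scoped ComplexConjugate

universe u

theorem opts : optsL (fun _ => true) 7 864 77 = [(288, 3, [-6, 8]), (288, 3, [-6, -27]), (288, 3, [8, -27])] := by
  decide +kernel

theorem two {G : Type u} [Group G] [Fintype G] {p : ℕ} [hp : Fact p.Prime] {Q : Sylow p G}
    [Fintype (centralizer ((Q : Subgroup G) : Set G))]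
    {D : Loc p (Q : Subgroup G) (normalizer ((Q : Subgroup G) : Set G)) (centralizer ((Q : Subgroup G) : Set G))}
    (B : PB D) {d1 d2 : ℤ} (hl : ((([d1, d2] : List ℤ)) : Multiset ℤ) = sds B) :
    ∃ a b : IrrCharacter G, a ∈ B.X ∧ b ∈ B.X ∧ (∀ χ ∈ B.X, χ = a ∨ χ = b) ∧
      (∀ f : IrrCharacter G → ℂ, ∑ χ ∈ B.X, f χ = f a + f b) ∧ sd B a = d1 ∧ sd B b = d2 := by
  have h1 : B.X.val.map (fun χ => sd B χ) = d1 ::ₘ d2 ::ₘ 0 := by
    rw [← sds, ← hl]; rfl
  obtain ⟨a, b, h, ha, hb⟩ := ext2 h1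
  have hmem : ∀ χ, χ ∈ B.X ↔ χ = a ∨ χ = b := by
    intro χ
    rw [← Finset.mem_val, h]
    simp
  refine ⟨a, b, (hmem a).2 (Or.inl rfl), (hmem b).2 (Or.inr rfl), fun χ hχ => (hmem χ).1 hχ, ?_, ha, hb⟩
  intro f
  rw [Finset.sum, h]
  simp

variable {T : Type u} [Group T] [Fintype T]

theorem conj_c {Q : Sylow 7 T} [Fintype (centralizer ((Q : Subgroup T) : Set T))]
    (D : Loc 7 (Q : Subgroup T) (normalizer ((Q : Subgroup T) : Set T)) (centralizer ((Q : Subgroup T) : Set T)))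
    {s : T} (hs : orderOf s = 7) : ∃ c : centralizer ((Q : Subgroup T) : Set T), D.l c ≠ 0 ∧ ∃ g : T, (c : T) = g * s * g⁻¹ := by
  haveI : Fact (Nat.Prime 7) := ⟨by norm_num⟩
  have hp : IsPGroup 7 (zpowers s) := IsPGroup.of_card (n := 1) (by rw [Nat.card_zpowers, hs, pow_one])
  obtain ⟨P, hP⟩ := hp.exists_le_sylow
  obtain ⟨g, hg⟩ := MulAction.exists_smul_eq T P Q
  have h1 : g * s * g⁻¹ ∈ (Q : Subgroup T) := by
    rw [← hg]
    show g * s * g⁻¹ ∈ ((g • P : Sylow 7 T) : Subgroup T)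
    rw [Sylow.smul_def, Sylow.pointwise_smul_def]
    exact Subgroup.mem_pointwise_smul_iff_inv_smul_mem.2 (by
      have h2 : (MulAut.conj g)⁻¹ • (g * s * g⁻¹) = s := by
        rw [← map_inv, MulAut.smul_def, MulAut.conj_apply]; group
      rw [h2]
      exact hP (mem_zpowers s))
  refine ⟨⟨g * s * g⁻¹, D.PC h1⟩, ?_, g, rfl⟩
  intro h
  have h2 := (D.l_reg _).1 h
  apply h2
  have h3 : orderOf (g * s * g⁻¹) = orderOf s := by
    have := orderOf_injective (MulAut.conj g).toMonoidHom (MulAut.conj g).injective s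
    simpa using this
  rw [h3, hs]

section

variable [IsSimpleGroup T] (hG : ¬ IsMulCommutative T) (h : Nat.card T = 6048) {Q : Sylow 7 T}
  [Fintype (centralizer ((Q : Subgroup T) : Set T))]
  {D : Loc 7 (Q : Subgroup T) (normalizer ((Q : Subgroup T) : Set T)) (centralizer ((Q : Subgroup T) : Set T))}

include hG h

/-- the degrees 1, 6, 8, 3 -/
theorem killA (hF : Fact (Nat.Prime 7)) (B : PBE D) (hC : Nat.card (centralizer ((Q : Subgroup T) : Set T)) = 7)
    (hl : ((([-6, 8] : List ℤ)) : Multiset ℤ) = sds B.toPB) : False := by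
  classical
  haveI : Fact (Nat.Prime 3) := ⟨by norm_num⟩
  have hη : sd B.toPB B.η = -3 := by rw [sd_eta, ← hl]; decide
  have hη1 : charDegree (B.η : T → ℂ) = 3 := by
    have := natAbs_sd B.toPB B.η
    rw [hη] at this
    exact this.symm
  have hXd : ∀ χ ∈ B.X, charDegree (χ : T → ℂ) = 6 ∨ charDegree (χ : T → ℂ) = 8 := by
    intro χ hχ
    have h2 : sd B.toPB χ ∈ sds B.toPB := Multiset.mem_map.2 ⟨χ, hχ, rfl⟩
    rw [← hl] at h2
    have h3 := natAbs_sd B.toPB χ
    simp only [Multiset.mem_coe, List.mem_cons, List.not_mem_nil, or_false] at h2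
    rcases h2 with h2 | h2 <;> rw [h2] at h3
    · left; exact h3.symm
    · right; exact h3.symm
  have hint : ∀ g : T, ¬ 7 ∣ orderOf g → ∃ z : ℤ, (B.η : T → ℂ) g = z := by
    intro g hg
    apply PBRatS.int_of_unique
    intro ψ hψ
    rw [hη1] at hψ
    rcases B.all (hinj_of hC) ψ (by rw [hψ]; norm_num) with h2 | h2 | h2
    · rw [h2, deg_triv] at hψ; norm_num at hψ
    · rcases hXd ψ h2 with h3 | h3 <;> rw [hψ] at h3 <;> norm_num at h3
    · exact B.eqE ψ h2 g hg
  obtain ⟨P⟩ : Nonempty (Sylow 3 T) := inferInstance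
  have hT : Nat.card (P : Subgroup T) = 27 := by
    have h1 := P.card_eq_multiplicity
    rw [h] at h1
    have h2 : (6048 : ℕ).factorization 3 = 3 := by
      rw [show (6048 : ℕ) = 3 ^ 3 * 224 by norm_num, Nat.factorization_mul (by norm_num) (by norm_num),
        Nat.Prime.factorization_pow (by norm_num)]
      simp [Nat.factorization_eq_zero_of_not_dvd]
    rw [h2] at h1
    exact h1
  have hord : ∀ t : (P : Subgroup T), ∃ j, orderOf (t : T) = 3 ^ j := by
    intro t
    obtain ⟨j, hj⟩ := (IsPGroup.iff_orderOf.1 P.2) t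
    exact ⟨j, by rw [Subgroup.orderOf_coe]; exact hj⟩
  have hz : ∀ t : (P : Subgroup T), ∃ z : ℤ, (B.η : T → ℂ) t = z := by
    intro t
    apply hint
    obtain ⟨j, hj⟩ := hord t
    rw [hj]
    intro h7
    have := (Nat.Prime.dvd_of_dvd_pow (by norm_num) h7)
    norm_num at this
  choose z hz using hz
  have hsq : ∀ t : (P : Subgroup T), t ≠ 1 → z t ^ 2 = 0 := by
    intro t ht
    obtain ⟨j, hj⟩ := hord t
    have h2 := PBRatS.par (p := 3) hj (hz t)
    rw [hη1] at h2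
    have h3 := ColTools.norm_lt hG (χ := B.η) B.hη (g := (t : T)) (by
      intro h4; exact ht (Subtype.ext h4))
    rw [deg_eq, hη1, hz t] at h3
    have h6 : |z t| < 3 := by
      rw [Complex.norm_intCast] at h3
      exact_mod_cast h3
    rw [abs_lt] at h6
    obtain ⟨h7, h8⟩ := h6
    obtain ⟨w, hw⟩ := h2
    have : z t = 0 := by push_cast at hw; omega
    rw [this]; norm_num
  have hz1 : z 1 = 3 := by
    have h2 := hz 1
    rw [Subgroup.coe_one, ← BlockDeg.charDegree_cast_irr, hη1] at h2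
    exact_mod_cast h2.symm
  have hsum : ∑ t : (P : Subgroup T), z t ^ 2 = 9 := by
    rw [← Finset.add_sum_erase Finset.univ _ (Finset.mem_univ (1 : (P : Subgroup T))), hz1,
      Finset.sum_congr rfl (fun t ht => hsq t (Finset.ne_of_mem_erase ht)), Finset.sum_const_zero]
    norm_num
  have hdv := PBRatS.dvd_sum_sq (P : Subgroup T) B.η z hz
  rw [hsum, hT] at hdv
  norm_num at hdv

/-- the degrees 1, 8, 27, 18 -/
theorem killC (hF : Fact (Nat.Prime 7)) (B : PBE D) (hC : Nat.card (centralizer ((Q : Subgroup T) : Set T)) = 7)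
    (hN : Nat.card (normalizer ((Q : Subgroup T) : Set T)) = 21)
    (hl : ((([8, -27] : List ℤ)) : Multiset ℤ) = sds B.toPB) : False := by
  classical
  have hη : sd B.toPB B.η = 18 := by rw [sd_eta, ← hl]; decide
  obtain ⟨hη1, hησ⟩ := sigma_of B.toPB hη (by norm_num)
  obtain ⟨a, b, ha, hb, hab, hsum, hda, hdb⟩ := two B.toPB hl
  obtain ⟨ha1, haσ⟩ := sigma_of B.toPB hda (by norm_num)
  obtain ⟨hb1, hbσ⟩ := sigma_of B.toPB hdb (by norm_num)
  have hη2 : charDegree (B.η : T → ℂ) = 18 := hη1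
  have ha2 : charDegree (a : T → ℂ) = 8 := ha1
  have hb2 : charDegree (b : T → ℂ) = 27 := hb1
  have haσ2 : B.σ a = 1 := haσ
  have hbσ2 : B.σ b = -1 := hbσ
  have hησ2 : B.σ B.η = 1 := hησ
  -- integrality
  have huniq : ∀ ψ : IrrCharacter T, charDegree (ψ : T → ℂ) = charDegree (a : T → ℂ) → ψ = a := by
    intro ψ hψ
    rw [ha2] at hψ
    rcases B.all (hinj_of hC) ψ (by rw [hψ]; norm_num) with h2 | h2 | h2
    · rw [h2, deg_triv] at hψ; norm_num at hψ
    · rcases hab ψ h2 with h3 | h3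
      · exact h3
      · rw [h3, hb2] at hψ; norm_num at hψ
    · rw [deg_eq_of_mem_E B h2, hη2] at hψ; norm_num at hψ
  obtain ⟨v, hv⟩ := PBRat.int_valued huniq
  obtain ⟨t, ht⟩ := exists_prime_orderOf_dvd_card' (G := T) 2 (by rw [h]; norm_num)
  have ht2 : t * t = 1 := by rw [← pow_two, ← ht, pow_orderOf_eq_one]
  have ht7 : ¬ 7 ∣ orderOf t := by rw [ht]; norm_num
  obtain ⟨y, hy⟩ := PBRatS.int_of_unique B.η t (by
    intro ψ hψ
    rw [hη2] at hψ
    rcases B.all (hinj_of hC) ψ (by rw [hψ]; norm_num) with h2 | h2 | h2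
    · rw [h2, deg_triv] at hψ; norm_num at hψ
    · rcases hab ψ h2 with h3 | h3
      · rw [h3, ha2] at hψ; norm_num at hψ
      · rw [h3, hb2] at hψ; norm_num at hψ
    · exact B.eqE ψ h2 t ht7)
  have hrel := B.rel t ht7
  rw [hsum, haσ2, hbσ2, hησ2, hv, hy] at hrel
  have hbt : (b : T → ℂ) t = ((1 + v t + y : ℤ) : ℂ) := by
    push_cast at hrel ⊢
    linear_combination -hrel
  have hF0 := F_zero B.toPB (hinj_of hC) (by norm_num) ht2 (by
    intro x hx
    obtain ⟨g, rfl⟩ := isConj_iff.1 hx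
    apply not_inv_of_odd
    · rw [show g * t * g⁻¹ = MulAut.conj g t from rfl, MulEquiv.orderOf_eq, ht]
    · rw [hN]; norm_num)
  have ha0 : (a : T → ℂ) 1 = 8 := by rw [← BlockDeg.charDegree_cast_irr, ha2]; norm_num
  have hb0 : (b : T → ℂ) 1 = 27 := by rw [← BlockDeg.charDegree_cast_irr, hb2]; norm_num
  have hη0 : (B.η : T → ℂ) 1 = 18 := by rw [← BlockDeg.charDegree_cast_irr, hη2]; norm_num
  rw [hsum, haσ2, hbσ2, hησ2, hv, hy, hbt, ha0, hb0, hη0] at hF0
  have h1 : ((4 * (y - 2 - 2 * v t) ^ 2 + 3 * (v t - 8) ^ 2 : ℤ) : ℂ) = ((0 : ℤ) : ℂ) := by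
    push_cast at hF0 ⊢
    linear_combination 216 * hF0
  have h2 : 4 * (y - 2 - 2 * v t) ^ 2 + 3 * (v t - 8) ^ 2 = 0 := by exact_mod_cast h1
  have h3 : v t = 8 := by
    have h4 : (v t - 8) ^ 2 = 0 := by nlinarith [sq_nonneg (y - 2 - 2 * v t), sq_nonneg (v t - 8)]
    have h5 := pow_eq_zero_iff (two_ne_zero) |>.1 h4
    linarith
  have hane : a ≠ triv T := by
    intro h4
    rw [h4, deg_triv] at ha2
    norm_num at ha2
  have h4 := PBRat.abs_lt hG hane hv (g := t) (by intro h5; rw [h5, orderOf_one] at ht; norm_num at ht)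
  rw [ha2, h3] at h4
  norm_num at h4

end

theorem main' [IsSimpleGroup T] (h : Nat.card T = 6048) (hs : ∀ g : T, g ^ 7 = 1 ∨ g ^ 8 = 1 ∨ g ^ 12 = 1) :
    ∃ χ : T → ℂ, IsCharacter T χ ∧ χ 1 = 6 ∧ (∀ g, χ g = 6 → g = 1) ∧ (∀ g, ∃ z : ℤ, χ g = z) ∧
      (∀ x, orderOf x = 3 → χ x = 0 → Odd (Nat.card (centralizer ({x} : Set T)))) ∧
      ∀ s r : T, orderOf s = 7 → orderOf r = 3 → r * s * r⁻¹ ∈ zpowers s → χ r = 0 ∧
        ∀ t : T, orderOf t = 2 → Nat.card {w : T // IsConj t w ∧ IsConj r (w * s)} *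
          (Nat.card (centralizer ({t} : Set T)) * Nat.card (centralizer ({r} : Set T))) = 6048 := by
  classical
  have hG : ¬ IsMulCommutative T := PBKill.not_comm (by rw [h]; norm_num)
  haveI hF : Fact (Nat.Prime 7) := ⟨by norm_num⟩
  obtain ⟨Q⟩ : Nonempty (Sylow 7 T) := inferInstance
  have hQ : Nat.card Q = 7 := (SylEven.data hG (p := 7) (M := 864) (by rw [h]) (by norm_num) Q).1
  obtain ⟨D, i, ⟨B⟩⟩ := exists_PBE Q hQ
  obtain ⟨hQ', e, c, l, hN, hC, he, he1, hecn, hmem, hl⟩ := dataL hG (M := 864) 77 (fun _ => true) (by rw [h])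
    (by norm_num) (by norm_num) B.toPB (fun _ _ => rfl) (by decide +kernel)
  rw [opts] at hmem
  simp only [List.mem_cons, List.not_mem_nil, or_false, Prod.mk.injEq] at hmem
  have hn : Nat.card (Sylow 7 T) = 288 := by rcases hmem with h1 | h1 | h1 <;> exact h1.1
  have he3 : e = 3 := by rcases hmem with h1 | h1 | h1 <;> exact h1.2.1
  subst he3
  rw [hn] at hecn
  have hc : c = 1 := by omega
  subst hc
  rw [mul_one] at hC
  have hN' : Nat.card (normalizer ((Q : Subgroup T) : Set T)) = 21 := by rw [hN]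
  have hl6 : l = [-6, -27] := by
    rcases hmem with h1 | h1 | h1
    · exact (killA hG h hF B hC (by rw [← hl, h1.2.2])).elim
    · exact h1.2.2
    · exact (killC hG h hF B hC hN' (by rw [← hl, h1.2.2])).elim
  rw [hl6] at hl
  clear hmem hl6
  have hη : sd B.toPB B.η = 32 := by rw [sd_eta, ← hl]; decide
  obtain ⟨hη1, hησ⟩ := sigma_of B.toPB hη (by norm_num)
  obtain ⟨a, b, ha, hb, hab, hsum, hda, hdb⟩ := two B.toPB hl
  obtain ⟨ha1, haσ⟩ := sigma_of B.toPB hda (by norm_num)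
  obtain ⟨hb1, hbσ⟩ := sigma_of B.toPB hdb (by norm_num)
  have hη2 : charDegree (B.η : T → ℂ) = 32 := hη1
  have ha2 : charDegree (a : T → ℂ) = 6 := ha1
  have hb2 : charDegree (b : T → ℂ) = 27 := hb1
  have haσ2 : B.σ a = -1 := haσ
  have hbσ2 : B.σ b = -1 := hbσ
  have hησ2 : B.σ B.η = 1 := hησ
  have huniq : ∀ ψ : IrrCharacter T, charDegree (ψ : T → ℂ) = charDegree (a : T → ℂ) → ψ = a := by
    intro ψ hψ
    rw [ha2] at hψ
    rcases B.all (hinj_of hC) ψ (by rw [hψ]; norm_num) with h2 | h2 | h2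
    · rw [h2, deg_triv] at hψ; norm_num at hψ
    · rcases hab ψ h2 with h3 | h3
      · exact h3
      · rw [h3, hb2] at hψ; norm_num at hψ
    · rw [deg_eq_of_mem_E B h2, hη2] at hψ; norm_num at hψ
  obtain ⟨v, hv⟩ := PBRat.int_valued huniq
  have hane : a ≠ triv T := by
    intro h4
    rw [h4, deg_triv] at ha2
    norm_num at ha2
  have ha0 : (a : T → ℂ) 1 = 6 := by rw [← BlockDeg.charDegree_cast_irr, ha2]; norm_num
  have hb0 : (b : T → ℂ) 1 = 27 := by rw [← BlockDeg.charDegree_cast_irr, hb2]; norm_num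
  have hη0 : (B.η : T → ℂ) 1 = 32 := by rw [← BlockDeg.charDegree_cast_irr, hη2]; norm_num
  have hv1 : v 1 = 6 := by
    have h2 := hv 1
    rw [ha0] at h2
    exact_mod_cast h2.symm
  have hb3 : ∀ x : T, 3 ∣ orderOf x → (b : T → ℂ) x = 0 := fun x hx =>
    ColTools.vanish b 3 3 (by norm_num) (by rw [h]; norm_num) (by rw [deg_eq, hb2]; norm_num) x hx
  have hη3 : ∀ x : T, 2 ∣ orderOf x → (B.η : T → ℂ) x = 0 := fun x hx =>
    ColTools.vanish B.η 2 5 (by norm_num) (by rw [h]; norm_num) (by rw [deg_eq, hη2]; norm_num) x hx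
  have hcf := a.2.isCharacter.isClassFunction
  have hv7 : ∀ s : T, orderOf s = 7 → v s = -1 := by
    intro s hs7
    obtain ⟨c, hc, g, hg⟩ := conj_c D hs7
    have h2 := B.val a ha c hc
    rw [hg, hcf s g, hv, haσ2] at h2
    exact_mod_cast h2
  refine ⟨a, a.2.isCharacter, ha0, ?_, fun g => ⟨v g, hv g⟩, ?_, ?_⟩
  · intro g hg
    by_contra hg1
    have h2 := PBRat.abs_lt hG hane hv hg1
    rw [hv g] at hg
    have h3 : v g = 6 := by exact_mod_cast hg
    rw [h3, ha2] at h2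
    norm_num at h2
  · intro x hx hx0
    have h7 : ¬ 7 ∣ orderOf x := by rw [hx]; norm_num
    have hrel := B.rel x h7
    rw [hsum, hησ2, hx0, hb3 x (by rw [hx])] at hrel
    have hηx : (B.η : T → ℂ) x = -1 := by
      push_cast at hrel
      linear_combination hrel
    obtain ⟨n, ρ, hρ, hρη⟩ := B.η.2
    have h2 := CharCentral.isIntegral_index_mul_character_div ρ x
    have h3 : (Module.finrank ℂ (Fin n → ℂ) : ℂ) = 32 := by
      rw [← hη0, ← hρη, Representation.char_one]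
    rw [hρη, hηx, h3] at h2
    obtain ⟨z, hz⟩ := CharCentral.exists_int_of_isIntegral_rat h2
      ((((centralizer ({x} : Set T)).index : ℚ) * (-1)) / 32) (by push_cast; rfl)
    have h4 : ((centralizer ({x} : Set T)).index : ℂ) * (-1) = z * 32 := by
      rw [← hz]; ring
    have h5 : ((centralizer ({x} : Set T)).index : ℤ) * (-1) = z * 32 := by exact_mod_cast h4
    have h6 : (32 : ℤ) ∣ ((centralizer ({x} : Set T)).index : ℤ) := ⟨-z, by linarith⟩
    have h8 : 32 ∣ (centralizer ({x} : Set T)).index := by exact_mod_cast h6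
    have h9 := (centralizer ({x} : Set T)).index_mul_card
    rw [h] at h9
    rw [← Nat.not_even_iff_odd]
    intro h10
    have h11 : 32 * 2 ∣ 6048 := by
      rw [← h9]
      exact mul_dvd_mul h8 h10.two_dvd
    norm_num at h11
  · intro s r hs7 hr3 hrs
    have hr7 : ¬ 7 ∣ orderOf r := by rw [hr3]; norm_num
    have hrne : r ≠ 1 := by intro h2; rw [h2, orderOf_one] at hr3; norm_num at hr3
    have hr3' : r ^ 3 = 1 := by rw [← hr3, pow_orderOf_eq_one]
    have hA : Nat.card (zpowers s) = 7 := by rw [Nat.card_zpowers, hs7]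
    have hA7 : ∀ x ∈ zpowers s, x ^ 7 = 1 := by
      intro x hx
      obtain ⟨k, rfl⟩ := mem_zpowers_iff.1 hx
      rw [← zpow_natCast, ← zpow_mul, mul_comm, zpow_mul, zpow_natCast, ← hs7, pow_orderOf_eq_one, one_zpow]
    have hA7' : ∀ x ∈ zpowers s, x ≠ 1 → orderOf x = 7 := fun x hx hx1 => orderOf_eq_prime (hA7 x hx) hx1
    have hsumA : ∑ x ∈ F (zpowers s), (a : T → ℂ) x = 0 := by
      have h1 : (1 : T) ∈ F (zpowers s) := by rw [mem_F]; exact one_mem _
      rw [← Finset.add_sum_erase _ _ h1, ha0, Finset.sum_congr rfl (g := fun _ => (-1 : ℂ)) (by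
        intro x hx
        rw [Finset.mem_erase, mem_F] at hx
        rw [hv, hv7 x (hA7' x hx.2 hx.1)]; norm_num), Finset.sum_const, Finset.card_erase_of_mem h1, card_F, hA]
      norm_num
    have har : (a : T → ℂ) r = 0 := by
      refine GT27ChA.zero_of_norm a.2.isCharacter (zpowers s) ?_ hsumA ?_ ?_
      · intro x hx y hy
        obtain ⟨k, rfl⟩ := mem_zpowers_iff.1 hx
        obtain ⟨m, rfl⟩ := mem_zpowers_iff.1 hy
        rw [← zpow_add, ← zpow_add, add_comm]
      · intro x hx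
        obtain ⟨k, rfl⟩ := mem_zpowers_iff.1 hx
        rw [← conj_zpow]
        exact zpow_mem hrs k
      · intro x hx hcom
        have hx7 := hA7 x hx
        by_contra hx1
        have ho := hA7' x hx hx1
        rcases hs (r * x) with h2 | h2 | h2
        · rw [hcom.mul_pow, hx7, mul_one] at h2
          apply hrne
          calc r = r ^ 7 * (r ^ 3)⁻¹ ^ 2 := by group
            _ = 1 := by rw [h2, hr3']; simp
        · rw [hcom.mul_pow] at h2
          have h3 : r ^ 8 = r ^ 2 := by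
            calc r ^ 8 = (r ^ 3) ^ 2 * r ^ 2 := by group
              _ = r ^ 2 := by rw [hr3']; simp
          have h4 : x ^ 8 = x := by
            calc x ^ 8 = x ^ 7 * x := by group
              _ = x := by rw [hx7, one_mul]
          rw [h3, h4] at h2
          have h5 : r ^ 2 = x⁻¹ := eq_inv_of_mul_eq_one_left h2
          have h6 : x ^ 3 = 1 := by
            have h7 : (x⁻¹) ^ 3 = 1 := by
              rw [← h5]
              calc (r ^ 2) ^ 3 = (r ^ 3) ^ 2 := by group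
                _ = 1 := by rw [hr3', one_pow]
            rw [inv_pow, inv_eq_one] at h7
            exact h7
          have h7 := orderOf_dvd_of_pow_eq_one h6
          rw [ho] at h7
          norm_num at h7
        · rw [hcom.mul_pow] at h2
          have h3 : r ^ 12 = 1 := by
            calc r ^ 12 = (r ^ 3) ^ 4 := by group
              _ = 1 := by rw [hr3']; simp
          rw [h3, one_mul] at h2
          have h4 := orderOf_dvd_of_pow_eq_one h2
          rw [ho] at h4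
          norm_num at h4
    refine ⟨har, ?_⟩
    intro t ht
    have ht2 : t * t = 1 := by rw [← pow_two, ← ht, pow_orderOf_eq_one]
    have ht7 : ¬ 7 ∣ orderOf t := by rw [ht]; norm_num
    have h1 := GT27ChA.count r t s ht2
    obtain ⟨c, hc, g, hg⟩ := conj_c D hs7
    have h2 := B.col (hinj_of hC) (fun χ => (χ : T → ℂ) r * (χ : T → ℂ) t / (χ : T → ℂ) 1) (by
      intro χ χ' h
      change (χ : T → ℂ) r * (χ : T → ℂ) t / (χ : T → ℂ) 1 = (χ' : T → ℂ) r * (χ' : T → ℂ) t / (χ' : T → ℂ) 1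
      rw [h r hr7, h t ht7, h 1 (by rw [orderOf_one]; norm_num)]) c hc
    have h3 : ∑ χ : IrrCharacter T, ((χ : T → ℂ) r * (χ : T → ℂ) t / (χ : T → ℂ) 1) * conj ((χ : T → ℂ) s) =
        ∑ χ : IrrCharacter T, ((χ : T → ℂ) r * (χ : T → ℂ) t / (χ : T → ℂ) 1) * conj ((χ : T → ℂ) c) := by
      refine Finset.sum_congr rfl fun χ _ => ?_
      rw [hg, χ.2.isCharacter.isClassFunction s g]
    have h4 : ((triv T : IrrCharacter T) : T → ℂ) r * ((triv T : IrrCharacter T) : T → ℂ) t /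
        ((triv T : IrrCharacter T) : T → ℂ) 1 = 1 := by
      change (1 : ℂ) * 1 / 1 = 1
      norm_num
    rw [h3, h2, hsum, har, hb3 r (by rw [hr3]), hη3 t (by rw [ht]), h4, h] at h1
    simp only [zero_mul, mul_zero, zero_div, add_zero, mul_one] at h1
    exact_mod_cast h1

theorem main {T : Type*} [Group T] [Fintype T] [IsSimpleGroup T] (hcard : Nat.card T = 6048)
    (hs : ∀ g : T, g ^ 7 = 1 ∨ g ^ 8 = 1 ∨ g ^ 12 = 1) :
    ∃ χ : T → ℂ, IsCharacter T χ ∧ χ 1 = 6 ∧ (∀ g, χ g = 6 → g = 1) ∧ (∀ g, ∃ z : ℤ, χ g = z) ∧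
      (∀ x, orderOf x = 3 → χ x = 0 → Odd (Nat.card (centralizer ({x} : Set T)))) ∧
      ∀ s r : T, orderOf s = 7 → orderOf r = 3 → r * s * r⁻¹ ∈ zpowers s → χ r = 0 ∧
        ∀ t : T, orderOf t = 2 → Nat.card {w : T // IsConj t w ∧ IsConj r (w * s)} *
          (Nat.card (centralizer ({t} : Set T)) * Nat.card (centralizer ({r} : Set T))) = 6048 :=
  main' hcard hs

end Cfsg.Agent.Lib.GT27Chr
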