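import Mathlib
import Cfsg.Agent.Lib.PBKill
import Cfsg.Agent.Lib.BlockGA

/-!
# A sharper numerical test on values at an inverting involution, for `C(P) = P` (helper54)

Integrality of the central characters and the norm of the column are used too.
-/

set_option autoImplicit false
set_option linter.all false

namespace Cfsg.Agent.Lib.PBKillC

open Cfsg Subgroup Cfsg.Agent.Lib.DefOneLoc Cfsg.Agent.Lib.DefOneOrd Cfsg.Agent.Lib.CharBasic
open Cfsg.Agent.Lib.DefOneGram Cfsg.Agent.Lib.DefOne Cfsg.Agent.Lib.BRB0 Cfsg.Agent.Lib.BRCore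
open Cfsg.Agent.Lib.PBData Cfsg.Agent.Lib.DefOnePrin Cfsg.Agent.Lib.BlockThird Cfsg.Agent.Lib.SmallSimple
open Cfsg.Agent.Lib.PBNum Cfsg.Agent.Lib.PBExt Cfsg.Agent.Lib.PBStruct Cfsg.Agent.Lib.PBFull
open Cfsg.Agent.Lib.PBLocal Cfsg.Agent.Lib.A7Table Cfsg.Agent.Lib.PBFchk Cfsg.Agent.Lib.PBKill
open scoped ComplexConjugate

universe u

/-- the search for a fixed centralizer order `c` -/
def fs2 (N p : ℕ) (L : ℤ) (c : ℕ) : List ℤ → ℤ → ℤ → ℤ → Bool
  | [], sA, _, sF => sA == -1 && ((N : ℤ) * (L + sF) == p * L * (c : ℤ) ^ 2)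
  | D :: Ds, sA, sQ, sF => (kvals D).any fun A => ((N : ℤ) * A % (c * D) == 0) &&
      (decide (sQ + A ^ 2 ≤ c) && fs2 N p L c Ds (sA + A) (sQ + A ^ 2) (sF + A ^ 2 * (L / D)))

theorem fs2_of {α : Type*} (N p : ℕ) (L : ℤ) (c : ℕ) (D A : α → ℤ) : ∀ (l : List α) (sA sQ sF : ℤ),
    (∀ x ∈ l, A x ∈ kvals (D x) ∧ (N : ℤ) * A x % (c * D x) = 0) → sQ + (l.map (fun x => A x ^ 2)).sum ≤ c →
    sA + (l.map A).sum = -1 →
    (N : ℤ) * (L + (sF + (l.map (fun x => A x ^ 2 * (L / D x))).sum)) = p * L * (c : ℤ) ^ 2 →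
    fs2 N p L c (l.map D) sA sQ sF = true := by
  intro l
  induction l with
  | nil =>
    intro sA sQ sF _ _ h1 h2
    simp only [List.map_nil, List.sum_nil, add_zero] at h1 h2
    rw [List.map_nil, fs2, Bool.and_eq_true]
    exact ⟨beq_iff_eq.2 h1, beq_iff_eq.2 h2⟩
  | cons x l ih =>
    intro sA sQ sF h0 hq h1 h2
    rw [List.map_cons, fs2, List.any_eq_true]
    rw [List.map_cons, List.sum_cons, ← add_assoc] at hq h1
    rw [List.map_cons, List.sum_cons, ← add_assoc sF] at h2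
    have hnn : 0 ≤ (l.map (fun x => A x ^ 2)).sum := by
      apply List.sum_nonneg
      intro y hy
      obtain ⟨z, -, rfl⟩ := List.mem_map.1 hy
      exact sq_nonneg _
    refine ⟨A x, (h0 x List.mem_cons_self).1, ?_⟩
    rw [Bool.and_eq_true, Bool.and_eq_true, beq_iff_eq, decide_eq_true_eq]
    refine ⟨(h0 x List.mem_cons_self).2, by linarith, ?_⟩
    exact ih _ _ _ (fun y hy => h0 y (List.mem_cons_of_mem _ hy)) hq h1 h2

section

variable {G : Type u} [Group G] [Fintype G] [IsSimpleGroup G] (hG : ¬ IsMulCommutative G)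
variable {p : ℕ} [hp : Fact p.Prime] {Q : Sylow p G} [Fintype (centralizer ((Q : Subgroup G) : Set G))]
  {D : Loc p (Q : Subgroup G) (normalizer ((Q : Subgroup G) : Set G)) (centralizer ((Q : Subgroup G) : Set G))}

/-- the value of a central character -/
theorem cc_dvd {χ : IrrCharacter G} {w : G} {v : ℤ} (hv : (χ : G → ℂ) w = (v : ℂ)) :
    ((Nat.card (centralizer ({w} : Set G)) : ℤ) * charDegree (χ : G → ℂ)) ∣ (Nat.card G : ℤ) * v := by
  have h1 := BlockGA.isIntegral_centralChar χ.2 w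
  rw [centralChar, hv, ← BlockDeg.charDegree_cast_irr] at h1
  have hd0 : (charDegree (χ : G → ℂ) : ℂ) ≠ 0 := by exact_mod_cast (BlockDeg.charDegree_pos χ.2).ne'
  obtain ⟨n, hn⟩ := CharCentral.exists_int_of_isIntegral_rat h1
    (((centralizer ({w} : Set G)).index : ℚ) * v / charDegree (χ : G → ℂ)) (by push_cast; rfl)
  rw [div_eq_iff hd0] at hn
  have hn2 : ((centralizer ({w} : Set G)).index : ℤ) * v = n * charDegree (χ : G → ℂ) := by exact_mod_cast hn
  refine ⟨n, ?_⟩
  have h3 := (centralizer ({w} : Set G)).card_mul_index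
  rw [← h3]
  push_cast
  linear_combination (Nat.card (centralizer ({w} : Set G)) : ℤ) * hn2

include hG in
/-- the main consequence -/
theorem fchk2 (hp2 : p ≠ 2) (B : PB D) (hC : Nat.card (centralizer ((Q : Subgroup G) : Set G)) = p)
    {l : List ℤ} (hl : full B = (l : Multiset ℤ)) {w : G} (hw : orderOf w = 2) (L : ℤ) (hL0 : L ≠ 0) (hL : ∀ d ∈ l, d ∣ L)
    (hz : ∃ x, IsConj w x ∧ x * D.u * x⁻¹ = D.u⁻¹) :
    fs2 (Nat.card G) p L (Nat.card (centralizer ({w} : Set G))) l 0 1 0 = true := by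
  classical
  have hZ := SimpleDeg.center_eq_bot (G := G) (fun h => hG ⟨⟨h⟩⟩)
  obtain ⟨l', hl', hl2⟩ := ext_list l _ hl
  -- nontrivial characters
  have hne : ∀ χ ∈ l', χ ≠ triv G := by
    intro χ hχ
    have h1 : χ ∈ B.η ::ₘ B.X.val := by rw [hl']; exact hχ
    rw [Multiset.mem_cons] at h1
    rcases h1 with rfl | h1
    · exact B.hη
    · rintro rfl; exact B.hX h1
  have hdeg1 : ∀ χ ∈ l', charDegree (χ : G → ℂ) ≠ 1 := by
    intro χ hχ h1
    have := two_le_deg hG (hne χ hχ)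
    omega
  have hval : ∀ χ : IrrCharacter G, ∃ v : ℤ, χ ∈ l' → (χ : G → ℂ) w = (v : ℂ) ∧
      ∃ k : ℕ, v = (charDegree (χ : G → ℂ) : ℤ) - 4 * k ∧ 0 < k ∧ 2 * k < charDegree (χ : G → ℂ) := by
    intro χ
    by_cases hχ : χ ∈ l'
    · obtain ⟨k, hk, hk0, hk1⟩ := invol_val hG (χ := χ) rfl (hdeg1 χ hχ) hw
      exact ⟨(charDegree (χ : G → ℂ) : ℤ) - 4 * k, fun _ => ⟨hk, k, rfl, hk0, hk1⟩⟩
    · exact ⟨0, fun h => absurd h hχ⟩
  choose v hv using hval
  have hw2 : w * w = 1 := by rw [← pow_two, ← hw, pow_orderOf_eq_one]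
  have hreg : ¬ p ∣ orderOf w := reg_of_invol hp2 hw2
  have hsumW : ∀ F : IrrCharacter G → ℂ, ((B.η ::ₘ B.X.val).map F).sum = (l'.map F).sum := by
    intro F
    rw [hl', Multiset.map_coe, Multiset.sum_coe]
  rw [← hl2]
  apply fs2_of _ _ L _ (fun χ => sd B χ) (fun χ => B.σ χ * v χ)
  · intro χ hχ
    obtain ⟨h1, k, h2, h3, h4⟩ := hv χ hχ
    have h5 : (sd B χ).sign = B.σ χ := by
      have hd0 : (0 : ℤ) < charDegree (χ : G → ℂ) := by exact_mod_cast BlockDeg.charDegree_pos χ.2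
      rw [sd]
      rcases B.pm χ with h6 | h6
      · rw [h6, one_mul, Int.sign_eq_one_of_pos hd0]
      · rw [h6, neg_one_mul, Int.sign_neg, Int.sign_eq_one_of_pos hd0]
    have h6 := mem_kvals (D := sd B χ) (k := k) h3 (by rw [natAbs_sd]; exact h4)
    rw [h5, natAbs_sd] at h6
    refine ⟨by rw [h2]; exact h6, ?_⟩
    have h7 := cc_dvd h1
    apply Int.emod_eq_zero_of_dvd
    have h8 : (Nat.card G : ℤ) * (B.σ χ * v χ) = B.σ χ * ((Nat.card G : ℤ) * v χ) := by ring
    have h9 : (Nat.card (centralizer ({w} : Set G)) : ℤ) * sd B χ =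
        B.σ χ * ((Nat.card (centralizer ({w} : Set G)) : ℤ) * charDegree (χ : G → ℂ)) := by rw [sd]; ring
    rw [h8, h9]
    exact mul_dvd_mul_left _ h7
  · -- the norm
    have h1 := ColTools.col_norm w
    have h2 : 1 + ((B.η ::ₘ B.X.val).map (fun χ : IrrCharacter G => ‖(χ : G → ℂ) w‖ ^ 2)).sum ≤
        (Nat.card (centralizer ({w} : Set G)) : ℝ) := by
      rw [← h1]
      have h3 : insert (triv G) (insert B.η B.X) ⊆ (Finset.univ : Finset (IrrCharacter G)) := Finset.subset_univ _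
      have h4 := Finset.sum_le_sum_of_subset_of_nonneg (f := fun χ : IrrCharacter G => ‖(χ : G → ℂ) w‖ ^ 2) h3
        (fun _ _ _ => by positivity)
      rw [Finset.sum_insert, Finset.sum_insert B.hηX] at h4
      · rw [Multiset.map_cons, Multiset.sum_cons]
        have h5 : ‖(triv G : G → ℂ) w‖ ^ 2 = 1 := by
          have h6 : (triv G : G → ℂ) w = 1 := rfl
          rw [h6]; norm_num
        rw [h5] at h4
        exact h4
      · rw [Finset.mem_insert, not_or]
        exact ⟨fun h => B.hη h.symm, B.hX⟩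
    rw [hl', Multiset.map_coe, Multiset.sum_coe] at h2
    have h3 : (l'.map (fun χ : IrrCharacter G => ‖(χ : G → ℂ) w‖ ^ 2)).sum =
        (((l'.map (fun χ => (B.σ χ * v χ) ^ 2)).sum : ℤ) : ℝ) := by
      rw [Int.cast_list_sum, List.map_map]
      congr 1
      apply List.map_congr_left
      intro χ hχ
      rw [Function.comp_apply, (hv χ hχ).1, Complex.norm_intCast, sq_abs, mul_pow]
      have h4 : (B.σ χ) ^ 2 = 1 := by
        rcases B.pm χ with h | h <;> rw [h] <;> norm_num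
      rw [h4, one_mul]; push_cast; rfl
    rw [h3] at h2
    exact_mod_cast h2
  · have h1 := B.rel w hreg
    rw [add_assoc, sum_full, hsumW] at h1
    have h2 : (l'.map (fun χ => (B.σ χ : ℂ) * (χ : G → ℂ) w)).sum = (((l'.map (fun χ => B.σ χ * v χ)).sum : ℤ) : ℂ) := by
      rw [Int.cast_list_sum, List.map_map]
      congr 1
      apply List.map_congr_left
      intro χ hχ
      rw [Function.comp_apply, (hv χ hχ).1]; push_cast; rfl
    rw [h2] at h1
    have h3 : 1 + (l'.map (fun χ => B.σ χ * v χ)).sum = 0 := by exact_mod_cast h1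
    omega
  · -- the sum of squares
    have hLd : ∀ χ ∈ l', sd B χ ∣ L := by
      intro χ hχ
      apply hL
      rw [← hl2]
      exact List.mem_map.2 ⟨χ, hχ, rfl⟩
    set SF : ℤ := (l'.map (fun χ => (B.σ χ * v χ) ^ 2 * (L / sd B χ))).sum with hSF
    have h2 : (L : ℂ) * ((B.η ::ₘ B.X.val).map (fun χ => (B.σ χ : ℂ) * ((χ : G → ℂ) w ^ 2 / (χ : G → ℂ) 1))).sum = (SF : ℂ) := by
      rw [hsumW, hSF, Int.cast_list_sum, ← List.sum_map_mul_left, List.map_map]
      congr 1
      apply List.map_congr_left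
      intro χ hχ
      obtain ⟨m, hm⟩ := hLd χ hχ
      have hd0 : (charDegree (χ : G → ℂ) : ℂ) ≠ 0 := by exact_mod_cast (BlockDeg.charDegree_pos χ.2).ne'
      have hsd0 : sd B χ ≠ 0 := by
        intro h0
        rw [h0, zero_mul] at hm
        exact hL0 hm
      rw [Function.comp_apply, (hv χ hχ).1, ← BlockDeg.charDegree_cast_irr]
      have h3 : L / sd B χ = m := by rw [hm]; exact Int.mul_ediv_cancel_left _ hsd0
      rw [h3, hm, sd]
      have h4 : ((B.σ χ : ℤ) : ℂ) ^ 2 = 1 := by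
        rcases B.pm χ with h | h <;> rw [h] <;> norm_num
      push_cast
      field_simp
    have hnum : (Nat.card G : ℂ) * (1 + ((B.η ::ₘ B.X.val).map (fun χ => (B.σ χ : ℂ) * ((χ : G → ℂ) w ^ 2 / (χ : G → ℂ) 1))).sum) =
        (Nat.card (centralizer ({w} : Set G)) : ℂ) ^ 2 * p := by
      obtain ⟨x, hx, hx'⟩ := hz
      have hx2 : x * x = 1 := by
        rw [← pow_two]
        apply orderOf_dvd_iff_pow_eq_one.1
        rw [← order_conj hx, hw]
      have h3 := F_one B (hinj_of hC) hp2 hx2 hx'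
      rw [add_assoc, sum_full, ← card_cent_conj hx] at h3
      rw [← h3]
      congr 3
      refine Multiset.map_congr rfl fun χ _ => ?_
      rw [val_conj χ hx]
    rw [zero_add]
    have h4 : ((Nat.card G : ℤ) : ℂ) * ((L + SF : ℤ) : ℂ) =
        ((p * L * (Nat.card (centralizer ({w} : Set G)) : ℤ) ^ 2 : ℤ) : ℂ) := by
      push_cast
      rw [← h2]
      linear_combination (L : ℂ) * hnum
    exact_mod_cast h4

end

end Cfsg.Agent.Lib.PBKillC
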