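import Mathlib
import Cfsg.Agent.Lib.PBKillC
import Cfsg.Agent.Lib.OrdMiscS

/-!
# No simple group of order 12096 (helper54)
-/

set_option autoImplicit false
set_option linter.all false

namespace Cfsg.Agent.Lib.GT27NS

open Cfsg Subgroup Cfsg.Agent.Lib.DefOneLoc Cfsg.Agent.Lib.DefOneOrd Cfsg.Agent.Lib.CharBasic
open Cfsg.Agent.Lib.DefOneGram Cfsg.Agent.Lib.DefOne Cfsg.Agent.Lib.BRB0 Cfsg.Agent.Lib.BRCore
open Cfsg.Agent.Lib.PBData Cfsg.Agent.Lib.DefOnePrin Cfsg.Agent.Lib.BlockThird Cfsg.Agent.Lib.SmallSimple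
open Cfsg.Agent.Lib.PBNum Cfsg.Agent.Lib.PBExt Cfsg.Agent.Lib.PBStruct Cfsg.Agent.Lib.PBFull
open Cfsg.Agent.Lib.PBLocal Cfsg.Agent.Lib.PBFchk Cfsg.Agent.Lib.PBKill Cfsg.Agent.Lib.PBKillC Cfsg.Agent.Lib.OrdMiscS
open scoped ComplexConjugate

universe u

/-- the multiples of six dividing the order -/
def cs6 : List ℕ := ((List.range 2017).filter fun d => 12096 % (6 * d) == 0).map (6 * ·)

theorem lenOk12096 : lenOk (fun _ => true) 7 1728 109 = true := by decide +kernel

/-- the possible sets of signed degrees -/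
def six : List (List ℤ) := [[64, -27, -27, -27, 8, 8], [8, -27, -27, -27, 36, 36], [-6, 8, -27, 36, 36, -48],
  [64, -48, -27, 8, 8, -6], [36, -27, 8, -6, -6, -6], [-27, 8, 8, 8, 8, -6]]

/-- all options have `n = 288`, `e = 6` and belong to the list -/
theorem opts12096 : ((optsL (fun _ => true) 7 1728 109).all fun t => t.1 == 288 && (t.2.1 == 6 &&
    six.any fun f => ((-(1 + t.2.2.sum)) :: t.2.2).isPerm f)) = true := by decide +kernel

theorem fail12096 : (six.all fun f => f.all (fun d => (1728 : ℤ) % d == 0) && cs6.all fun c => !(fs2 12096 7 1728 c f 0 1 0)) = true := by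
  decide +kernel

theorem csOk6 : csOk 12096 6 cs6 = true := by decide +kernel

theorem aux {G : Type u} [Group G] [Fintype G] [IsSimpleGroup G] (hG : ¬ IsMulCommutative G) : Nat.card G ≠ 12096 := by
  classical
  intro h
  haveI : Fact (Nat.Prime 7) := ⟨by norm_num⟩
  obtain ⟨Q⟩ : Nonempty (Sylow 7 G) := inferInstance
  have hQ : Nat.card Q = 7 := (SylEven.data hG (p := 7) (M := 1728) (by rw [h]) (by norm_num) Q).1
  obtain ⟨D, i, ⟨B⟩⟩ := exists_PBE Q hQ
  obtain ⟨hQ', e, c, l, hN, hC, he, he1, hecn, hmem, hl⟩ := dataL hG (M := 1728) 109 (fun _ => true) (by rw [h])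
    (by norm_num) (by norm_num) B.toPB (fun _ _ => rfl) lenOk12096
  have hopt := opts12096
  rw [List.all_eq_true] at hopt
  have h0 := hopt _ hmem
  simp only [Bool.and_eq_true, beq_iff_eq, List.any_eq_true] at h0
  obtain ⟨h1, he6, f, hf6, hperm⟩ := h0
  have hfail := fail12096
  simp only [List.all_eq_true, Bool.and_eq_true, Bool.not_eq_true', beq_iff_eq] at hfail
  obtain ⟨hL, htest⟩ := hfail f hf6
  have hfull : full B.toPB = (f : Multiset ℤ) := by
    rw [full_eq _ hl]
    exact Multiset.coe_eq_coe.2 (List.isPerm_iff.1 hperm)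
  subst he6
  rw [h1] at hecn
  have hc : c = 1 := by omega
  subst hc
  rw [mul_one] at hC
  obtain ⟨N, hNd⟩ : ∃ N, N = normalizer ((Q : Subgroup G) : Set G) := ⟨_, rfl⟩
  rw [← hNd] at hN
  -- a complement
  set Q' : Subgroup N := (Q : Subgroup G).subgroupOf N with hQ'd
  have hQN : (Q : Subgroup G) ≤ N := by rw [hNd]; exact le_normalizer
  have hQ'c : Nat.card Q' = 7 := by
    rw [hQ'd, Nat.card_congr (Subgroup.subgroupOfEquivOfLe hQN).toEquiv]; exact hQ
  have hQ'i : Q'.index = 6 := by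
    have := Q'.card_mul_index
    rw [hQ'c, hN] at this
    omega
  have hQ'n : Q'.Normal := by
    rw [hQ'd, hNd]; exact Subgroup.normal_in_normalizer
  obtain ⟨K', hK'⟩ := Subgroup.exists_right_complement'_of_coprime (N := Q') (by rw [hQ'c, hQ'i]; norm_num)
  have hK'c : Nat.card K' = 6 := by
    have := hK'.card_mul
    rw [hQ'c, hN] at this
    omega
  set K := K'.map N.subtype with hK
  have hKc : Nat.card K = 6 := by
    rw [hK, Subgroup.card_map_of_injective N.subtype_injective, hK'c]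
  have hKN : K ≤ N := Subgroup.map_subtype_le _
  have hcyc : IsCyclic K := cyc (p := 7) (Q : Subgroup G) K hQ hC (by rw [← hNd]; exact hKN) (by rw [hKc]; norm_num)
  obtain ⟨k, hk⟩ := hcyc.exists_generator
  have hk6 : orderOf k = 6 := by rw [orderOf_eq_card_of_forall_mem_zpowers hk, hKc]
  have hg6 : orderOf (k : G) = 6 := by rw [Subgroup.orderOf_coe]; exact hk6
  set w : G := (k : G) ^ 3 with hw
  have hw2 : orderOf w = 2 := by rw [hw, orderOf_pow' _ (by norm_num), hg6]; norm_num
  have hwN : w ∈ N := pow_mem (hKN k.2) 3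
  have hinv := inverts (p := 7) (by norm_num) (Q : Subgroup G) hQ hC (by rw [← hNd]; exact hwN) hw2
  have h6 : 6 ∣ Nat.card (centralizer ({w} : Set G)) := by
    have h4 : (k : G) ∈ centralizer ({w} : Set G) := by
      rw [mem_centralizer_singleton_iff, hw]
      exact (Commute.refl (k : G)).pow_right 3
    rw [← hg6]
    exact Subgroup.orderOf_dvd_natCard _ h4
  have hcs : Nat.card (centralizer ({w} : Set G)) ∈ cs6 := by
    refine mem_cs (N := 12096) (m := 6) csOk6 (by norm_num) (by norm_num) ?_ h6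
    rw [← h]; exact Subgroup.card_subgroup_dvd_card _
  have hz : ∃ x, IsConj w x ∧ x * D.u * x⁻¹ = D.u⁻¹ := ⟨w, IsConj.refl w, hinv D.u D.uP⟩
  have hf := fchk2 hG (by norm_num) B.toPB hC hfull hw2 1728
    (by norm_num) (fun d hd => Int.dvd_of_emod_eq_zero (hL d hd)) hz
  rw [h] at hf
  rw [htest _ hcs] at hf
  exact absurd hf (by simp)

theorem ne_12096 {G : Type u} [Group G] [Finite G] [IsSimpleGroup G] (hG : ¬ IsMulCommutative G) : Nat.card G ≠ 12096 := by
  letI := Fintype.ofFinite G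
  exact aux hG

end Cfsg.Agent.Lib.GT27NS
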