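import Cfsg.Agent.Lib.BRCore
import Cfsg.Agent.Lib.SmallSimple2
import Cfsg.Agent.Lib.FusionControl
import Cfsg.Agent.Lib.FocalTools
import Cfsg.Agent.Lib.Blackburn
import Cfsg.Agent.Lib.BlockCore

/-!
Elements of order 3 in a simple group of order 6048 (helper51, for S3427).
-/

set_option autoImplicit false
set_option linter.all false

namespace Cfsg.Agent.Lib.GT27Real

open Cfsg Cfsg.Agent.Lib.CharBasic Subgroup
open scoped ComplexConjugate commutatorElement

universe u v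

section char

variable {A : Type u} [Group A] [Fintype A]

theorem sum_nat {φ : A → ℂ} (h : IsCharacter A φ) {k : A → ℤ} (hk : ∀ a, φ a = k a) :
    ∃ n : ℕ, ∑ a, k a = Nat.card A * n := by
  obtain ⟨n, hn⟩ := h.classInner_nat (isCharacter_one (G := A))
  refine ⟨n, ?_⟩
  unfold classInner at hn
  have h0 : (Nat.card A : ℂ) ≠ 0 := Nat.cast_ne_zero.mpr Nat.card_pos.ne'
  have h1 : ∑ a : A, φ a * conj ((1 : A → ℂ) a) = ∑ a : A, (k a : ℂ) := by
    refine Finset.sum_congr rfl fun a _ => ?_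
    rw [hk]; simp
  rw [h1, inv_mul_eq_iff_eq_mul₀ h0] at hn
  exact_mod_cast hn

theorem norm_nat (hab : ∀ a b : A, a * b = b * a) {φ : A → ℂ} (h : IsCharacter A φ) {k : A → ℤ}
    (hk : ∀ a, φ a = k a) {d : ℕ} (hd : φ 1 = d) : ∃ n : ℕ, d ≤ n ∧ ∑ a, k a ^ 2 = Nat.card A * n := by
  classical
  have h2 := BRCore.classInner_eq_sum h h
  have h3 := BRCore.degree_sum h hd
  refine ⟨∑ χ : IrrCharacter A, BRCore.mlt φ χ * BRCore.mlt φ χ, ?_, ?_⟩
  · rw [← h3]
    refine Finset.sum_le_sum fun χ _ => ?_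
    have h4 : charDegree (χ : A → ℂ) = 1 := by
      have h5 := χ.2.one_eq_one_of_comm hab
      have h6 := BlockDeg.charDegree_cast χ.2.isCharacter
      rw [h5] at h6
      exact_mod_cast h6
    rw [h4, mul_one]
    exact Nat.le_mul_self _
  · unfold classInner at h2
    have h0 : (Nat.card A : ℂ) ≠ 0 := Nat.cast_ne_zero.mpr Nat.card_pos.ne'
    have h1 : ∑ a : A, φ a * conj (φ a) = ∑ a : A, (k a : ℂ) ^ 2 := by
      refine Finset.sum_congr rfl fun a _ => ?_
      rw [hk, ← Complex.ofReal_intCast, Complex.conj_ofReal, sq]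
    rw [h1, inv_mul_eq_iff_eq_mul₀ h0] at h2
    exact_mod_cast h2

theorem mono {B : Type v} [Group B] [Fintype B] (f : B →* A) {φ : A → ℂ} (h : IsCharacter A φ) {k : A → ℤ}
    (hk : ∀ a, φ a = k a) (h0 : ∑ b, k (f b) = 0) : ∑ a, k a = 0 := by
  by_contra hne
  have h1 : classInner φ (1 : A → ℂ) ≠ 0 := by
    intro h2
    apply hne
    unfold classInner at h2
    have h0 : (Nat.card A : ℂ) ≠ 0 := Nat.cast_ne_zero.mpr Nat.card_pos.ne'
    have h1 : ∑ a : A, φ a * conj ((1 : A → ℂ) a) = ∑ a : A, (k a : ℂ) := by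
      refine Finset.sum_congr rfl fun a _ => ?_
      rw [hk]; simp
    rw [h1, inv_mul_eq_iff_eq_mul₀ h0, mul_zero] at h2
    exact_mod_cast h2
  have h2 : IsIrrCharacter A (1 : A → ℂ) := (isCharacter_one (G := A)).isIrr_of_one_eq_one rfl
  have h3 := (h.sub_constituent h2 h1).comp f
  obtain ⟨n, hn⟩ := sum_nat h3 (k := fun b => k (f b) - 1) (fun b => by simp [hk])
  rw [Finset.sum_sub_distrib, h0] at hn
  simp only [Finset.sum_const, Finset.card_univ, smul_eq_mul, nsmul_eq_mul, mul_one, zero_sub] at hn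
  rw [← Nat.card_eq_fintype_card] at hn
  have h5 : 0 < (Nat.card B : ℤ) := by exact_mod_cast Nat.card_pos
  nlinarith [(Int.natCast_nonneg n)]

end char

section act

variable {G : Type u} [Group G]

/-- counting by conjugation orbits -/
theorem conj_count [Finite G] (N : Subgroup G) (S : Set G) (hS : ∀ n ∈ N, ∀ x ∈ S, n * x * n⁻¹ ∈ S) (m : ℕ)
    (hm : ∀ x ∈ S, m ∣ (centralizer ({x} : Set G)).relIndex N) : m ∣ Nat.card S := by
  let act : MulAction N S :=
    { smul := fun n x => ⟨n * x * (n : G)⁻¹, hS n n.2 x x.2⟩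
      one_smul := fun x => Subtype.ext (by show (1 : G) * x * (1 : G)⁻¹ = x; simp)
      mul_smul := fun a b x => Subtype.ext (by
        show ((a * b : N) : G) * x * ((a * b : N) : G)⁻¹ = a * (b * x * (b : G)⁻¹) * (a : G)⁻¹
        rw [coe_mul]; group) }
  have h1 := SmallSimple.card_modEq_of_orbits (H := N) (X := S) m ∅ (fun x hx => absurd hx (by simp)) (by
    intro x _
    have h2 : (MulAction.stabilizer N x) = (centralizer ({(x : G)} : Set G)).subgroupOf N := by
      ext n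
      rw [MulAction.mem_stabilizer_iff, mem_subgroupOf, mem_centralizer_singleton_iff]
      constructor
      · intro h
        have : (n : G) * x * (n : G)⁻¹ = x := congrArg Subtype.val h
        rw [mul_inv_eq_iff_eq_mul] at this
        exact this
      · intro h
        apply Subtype.ext
        show (n : G) * x * (n : G)⁻¹ = x
        rw [mul_inv_eq_iff_eq_mul]
        exact h
    have h3 := MulAction.index_stabilizer N x
    rw [h2] at h3
    have h4 := hm x x.2
    unfold relIndex at h4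
    rw [h3] at h4
    exact h4)
  simpa using (Nat.modEq_zero_iff_dvd.mp (by simpa using h1))

end act


/-- the homomorphism from a cyclic group of order 3 -/
def cyc3 {G : Type u} [Group G] (x : G) (hx : x ^ 3 = 1) : Multiplicative (ZMod 3) →* G where
  toFun a := x ^ (Multiplicative.toAdd a).val
  map_one' := by show x ^ ((0 : ZMod 3)).val = 1; simp
  map_mul' a b := by
    show x ^ (Multiplicative.toAdd a + Multiplicative.toAdd b).val = _
    rw [ZMod.val_add, ← pow_eq_pow_mod _ hx, pow_add]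

theorem sum3 (g : Multiplicative (ZMod 3) → ℤ) :
    ∑ a, g a = g (Multiplicative.ofAdd 0) + g (Multiplicative.ofAdd 1) + g (Multiplicative.ofAdd 2) := by
  rw [← Equiv.sum_comp Multiplicative.ofAdd g]
  exact Fin.sum_univ_three (fun i : Fin 3 => g (Multiplicative.ofAdd (i : ZMod 3)))

section grp

variable {T : Type u} [Group T] [Fintype T]

theorem pow_three (hs : ∀ g : T, g ^ 7 = 1 ∨ g ^ 8 = 1 ∨ g ^ 12 = 1) (P : Sylow 3 T) {x : T}
    (hx : x ∈ (P : Subgroup T)) : x ^ 3 = 1 := by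
  obtain ⟨k, hk⟩ := P.2 ⟨x, hx⟩
  have hk' : x ^ 3 ^ k = 1 := congrArg Subtype.val hk
  have h1 : orderOf x ∣ 3 ^ k := orderOf_dvd_of_pow_eq_one hk'
  rw [← orderOf_dvd_iff_pow_eq_one]
  rcases hs x with h | h | h
  · have h2 := Nat.dvd_gcd h1 (orderOf_dvd_of_pow_eq_one h)
    rw [Nat.Coprime.pow_left k (by norm_num : Nat.Coprime 3 7)] at h2
    exact h2.trans (one_dvd _)
  · have h2 := Nat.dvd_gcd h1 (orderOf_dvd_of_pow_eq_one h)
    rw [Nat.Coprime.pow_left k (by norm_num : Nat.Coprime 3 8)] at h2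
    exact h2.trans (one_dvd _)
  · have h2 := orderOf_dvd_of_pow_eq_one h
    have h3 : (orderOf x).Coprime 4 :=
      Nat.Coprime.coprime_dvd_left h1 (Nat.Coprime.pow_left k (by norm_num : Nat.Coprime 3 4))
    exact h3.dvd_of_dvd_mul_left (by norm_num; exact h2)

theorem ord_three (hs : ∀ g : T, g ^ 7 = 1 ∨ g ^ 8 = 1 ∨ g ^ 12 = 1) (P : Sylow 3 T) {x : T}
    (hx : x ∈ (P : Subgroup T)) (h1 : x ≠ 1) : orderOf x = 3 :=
  orderOf_eq_prime (pow_three hs P hx) h1

theorem no21 (hs : ∀ g : T, g ^ 7 = 1 ∨ g ^ 8 = 1 ∨ g ^ 12 = 1) {x y : T} (hx : orderOf x = 3) (hy : orderOf y = 7)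
    (h : Commute x y) : False := by
  have h1 := h.orderOf_mul_eq_mul_orderOf_of_coprime (by rw [hx, hy]; norm_num)
  rw [hx, hy] at h1
  rcases hs (x * y) with h2 | h2 | h2
  all_goals
    have h3 := orderOf_dvd_of_pow_eq_one h2
    rw [h1] at h3
    norm_num at h3

theorem no7 (hs : ∀ g : T, g ^ 7 = 1 ∨ g ^ 8 = 1 ∨ g ^ 12 = 1) (P : Sylow 3 T)
    (hP : Nat.card (P : Subgroup T) = 27) : ¬ 7 ∣ Nat.card (normalizer ((P : Subgroup T) : Set T)) := by
  intro h
  have : Fact (Nat.Prime 7) := ⟨by norm_num⟩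
  obtain ⟨y, hy⟩ := exists_prime_orderOf_dvd_card' 7 h
  have hy' : orderOf (y : T) = 7 := by rw [Subgroup.orderOf_coe]; exact hy
  have h1 := conj_count (zpowers (y : T)) (((P : Subgroup T) : Set T) \ {1}) (by
    intro n hn x hx
    have hnN : n ∈ normalizer ((P : Subgroup T) : Set T) := (zpowers_le.mpr y.2) hn
    refine ⟨(mem_normalizer_iff.mp hnN x).mp hx.1, fun h => hx.2 ?_⟩
    rw [Set.mem_singleton_iff] at h ⊢
    have h2 : n * x = 1 * n := by rw [← h]; group
    simpa using h2) 7 (by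
    intro x hx
    have h2 : (centralizer ({x} : Set T)).relIndex (zpowers (y : T)) ∣ 7 := by
      have := relIndex_dvd_card (centralizer ({x} : Set T)) (zpowers (y : T))
      rwa [Nat.card_zpowers, hy'] at this
    rcases (Nat.dvd_prime (by norm_num : Nat.Prime 7)).mp h2 with h3 | h3
    · exfalso
      rw [relIndex_eq_one] at h3
      have h4 := h3 (mem_zpowers (y : T))
      rw [mem_centralizer_singleton_iff] at h4
      exact no21 hs (ord_three hs P hx.1 hx.2) hy' h4.symm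
    · rw [h3])
  have h2 : Nat.card ↥(((P : Subgroup T) : Set T) \ {1}) = 26 := by
    have h3 := Set.ncard_diff_singleton_of_mem (s := ((P : Subgroup T) : Set T)) (a := 1) (one_mem (P : Subgroup T))
    have h4 : ((P : Subgroup T) : Set T).ncard = 27 := hP
    rw [h4] at h3
    exact h3
  rw [h2] at h1
  norm_num at h1

theorem card_norm [IsSimpleGroup T] (hcard : Nat.card T = 6048)
    (hs : ∀ g : T, g ^ 7 = 1 ∨ g ^ 8 = 1 ∨ g ^ 12 = 1) (P : Sylow 3 T)
    (hP : Nat.card (P : Subgroup T) = 27) : Nat.card (normalizer ((P : Subgroup T) : Set T)) = 54 ∨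
      Nat.card (normalizer ((P : Subgroup T) : Set T)) = 216 := by
  have : Fact (Nat.Prime 3) := ⟨by norm_num⟩
  have hnc := SmallSimple.not_isMulCommutative_of_card (G := T) hcard (by norm_num)
  have h1 : Nat.card T = 3 ^ 3 * 224 := by rw [hcard]; norm_num
  have h2 := SmallSimple.nsyl_mem h1 (by norm_num)
  have h3 := SmallSimple.card_normalizer_mul_nsyl P
  have h4 := SmallSimple.nsyl_ne_one hnc (p := 3) (by rw [hcard]; norm_num)
  have h5 := SmallSimple.two_mul_card_dvd_factorial_nsyl hnc (p := 3) (by rw [hcard]; norm_num)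
  have h6 := no7 hs P hP
  rw [hcard] at h3 h5
  generalize Nat.card (Sylow 3 T) = n at *
  generalize Nat.card (normalizer ((P : Subgroup T) : Set T)) = m at *
  have h7 : n ∈ ({1, 4, 7, 16, 28, 112} : Finset ℕ) := by
    have : (224 : ℕ).divisors.filter (fun d => d % 3 = 1) = {1, 4, 7, 16, 28, 112} := by decide +kernel
    rwa [this] at h2
  simp only [Finset.mem_insert, Finset.mem_singleton] at h7
  rcases h7 with rfl | rfl | rfl | rfl | rfl | rfl
  · exact absurd rfl h4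
  · norm_num [Nat.factorial] at h5
  · norm_num [Nat.factorial] at h5
  · exfalso
    apply h6
    omega
  · right; omega
  · left; omega

end grp

section vals

variable {T : Type u} [Group T] [Fintype T] {χ : T → ℂ} {k : T → ℤ}

theorem k_conj (hχ : IsCharacter T χ) (hk : ∀ g, χ g = k g) (g x : T) : k (g * x * g⁻¹) = k x := by
  have := hχ.isClassFunction x g
  rw [hk, hk] at this
  exact_mod_cast this

theorem k_inv (hχ : IsCharacter T χ) (hk : ∀ g, χ g = k g) (x : T) : k x⁻¹ = k x := by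
  have := hχ.inv x
  rw [hk, hk, ← Complex.ofReal_intCast (k x), Complex.conj_ofReal, Complex.ofReal_intCast] at this
  exact_mod_cast this

theorem sq_eq_inv {x : T} (hx : x ^ 3 = 1) : x ^ 2 = x⁻¹ := by
  rw [eq_inv_iff_mul_eq_one, ← pow_succ, hx]

theorem three_sum (hχ : IsCharacter T χ) (hk : ∀ g, χ g = k g) (h6 : k 1 = 6) {x : T} (hx : x ^ 3 = 1) :
    ∑ a, k (cyc3 x hx a) = 6 + 2 * k x := by
  rw [sum3]
  have e0 : cyc3 x hx (Multiplicative.ofAdd 0) = 1 := map_one _
  have e1 : cyc3 x hx (Multiplicative.ofAdd 1) = x := by show x ^ (1 : ℕ) = x; exact pow_one x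
  have e2 : cyc3 x hx (Multiplicative.ofAdd 2) = x⁻¹ := by show x ^ (2 : ℕ) = x⁻¹; exact sq_eq_inv hx
  rw [e0, e1, e2, k_inv hχ hk, h6]; ring

theorem card3 : Nat.card (Multiplicative (ZMod 3)) = 3 := by
  rw [Nat.card_congr Multiplicative.toAdd, Nat.card_zmod]

theorem three_vals (hχ : IsCharacter T χ) (hk : ∀ g, χ g = k g) (h6 : k 1 = 6) (hf : ∀ g, k g = 6 → g = 1)
    {x : T} (hx : orderOf x = 3) : k x = 3 ∨ k x = 0 ∨ k x = -3 := by
  have hx3 : x ^ 3 = 1 := by rw [← hx]; exact pow_orderOf_eq_one x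
  obtain ⟨n, hn⟩ := sum_nat (hχ.comp (cyc3 x hx3)) (k := fun a => k (cyc3 x hx3 a)) (fun a => hk _)
  rw [three_sum hχ hk h6, card3] at hn
  have h1 := (BlockCore.re_le_one hχ x).1
  rw [hk, hk, h6, Complex.intCast_re] at h1
  have h2 : k x ≤ 6 := by
    have : ((k x : ℤ) : ℝ) ≤ ((6 : ℤ) : ℝ) := by simpa using h1
    exact_mod_cast this
  have h3 : k x ≠ 6 := by
    intro h
    have := hf x h
    rw [this, orderOf_one] at hx
    norm_num at hx
  push_cast at hn
  omega

end vals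

section last

variable {T : Type u} [Group T] [Fintype T] {χ : T → ℂ} {k : T → ℤ}

/-- the abelian case: the normalizer has order 54 -/
theorem abel_card (hs : ∀ g : T, g ^ 7 = 1 ∨ g ^ 8 = 1 ∨ g ^ 12 = 1) (hχ : IsCharacter T χ) (hk : ∀ g, χ g = k g)
    (h6 : k 1 = 6) (hf : ∀ g, k g = 6 → g = 1)
    (hodd : ∀ x : T, orderOf x = 3 → k x = 0 → Odd (Nat.card (centralizer ({x} : Set T))))
    (P : Sylow 3 T) (hP : Nat.card (P : Subgroup T) = 27)
    (hab : ∀ a ∈ (P : Subgroup T), ∀ b ∈ (P : Subgroup T), a * b = b * a)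
    {r : T} (hrP : r ∈ (P : Subgroup T)) (hr : orderOf r = 3) (hr0 : k r = 0) :
    Nat.card (normalizer ((P : Subgroup T) : Set T)) ≠ 216 := by
  classical
  intro hN
  obtain ⟨m, hm, hm2⟩ := norm_nat (A := (P : Subgroup T)) (fun a b => Subtype.ext (hab a a.2 b b.2))
    (hχ.restrict (P : Subgroup T)) (k := fun a => k a) (fun a => hk _) (d := 6) (by
      show χ ((1 : (P : Subgroup T)) : T) = _
      rw [coe_one, hk, h6]; norm_num)
  have hpw : ∀ a : (P : Subgroup T), k (a : T) ^ 2 = 9 * (if k (a : T) = 0 then 0 else 1) + (if a = 1 then 27 else 0) := by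
    intro a
    by_cases ha : a = 1
    · rw [ha, coe_one, h6]; norm_num
    · have h1 : (a : T) ≠ 1 := fun h => ha (Subtype.ext h)
      rcases three_vals hχ hk h6 hf (ord_three hs P a.2 h1) with h | h | h
      · rw [h, if_neg (by norm_num), if_neg ha]; norm_num
      · rw [h, if_pos rfl, if_neg ha]; norm_num
      · rw [h, if_neg (by norm_num), if_neg ha]; norm_num
  rw [Finset.sum_congr rfl (fun a _ => hpw a), Finset.sum_add_distrib, ← Finset.mul_sum,
    Finset.sum_ite_eq' Finset.univ (1 : (P : Subgroup T)) (fun _ => (27 : ℤ)), if_pos (Finset.mem_univ _), hP] at hm2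
  have h1 : ∑ a : (P : Subgroup T), (if k (a : T) = 0 then (0 : ℤ) else 1) =
      27 - (Nat.card {a : (P : Subgroup T) // k (a : T) = 0} : ℤ) := by
    have h2 : ∀ a : (P : Subgroup T), (if k (a : T) = 0 then (0 : ℤ) else 1) = 1 - (if k (a : T) = 0 then 1 else 0) := by
      intro a; split_ifs <;> norm_num
    rw [Finset.sum_congr rfl (fun a _ => h2 a), Finset.sum_sub_distrib, Finset.sum_const, Finset.card_univ,
      ← Nat.card_eq_fintype_card, hP, Nat.card_eq_fintype_card, Fintype.card_subtype, Finset.card_filter]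
    push_cast; ring
  set S : Set T := {a | a ∈ (P : Subgroup T) ∧ k a = 0} with hS
  have h3 : Nat.card {a : (P : Subgroup T) // k (a : T) = 0} = Nat.card S := by
    refine Nat.card_congr ⟨fun a => ⟨a.1.1, a.1.2, a.2⟩, fun a => ⟨⟨a.1, a.2.1⟩, a.2.2⟩, fun a => rfl, fun a => rfl⟩
  have h4 : 8 ∣ Nat.card S := by
    apply conj_count (normalizer ((P : Subgroup T) : Set T)) S
    · intro n hn x hx
      exact ⟨(mem_normalizer_iff.mp hn x).mp hx.1, by rw [k_conj hχ hk]; exact hx.2⟩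
    · intro x hx
      have hx1 : x ≠ 1 := by
        rintro rfl
        have h9 : k 1 = 0 := hx.2
        rw [h6] at h9
        exact absurd h9 (by norm_num)
      have h5 := hodd x (ord_three hs P hx.1 hx1) hx.2
      have h6 := SmallSimple.relIndex_mul_card_inf (centralizer ({x} : Set T)) (normalizer ((P : Subgroup T) : Set T))
      rw [hN] at h6
      have h7 : Odd (Nat.card ↥(centralizer ({x} : Set T) ⊓ normalizer ((P : Subgroup T) : Set T))) :=
        Odd.of_dvd_nat h5 (card_dvd_of_le inf_le_left)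
      have h8 : Nat.Coprime 8 (Nat.card ↥(centralizer ({x} : Set T) ⊓ normalizer ((P : Subgroup T) : Set T))) := by
        rw [show (8 : ℕ) = 2 ^ 3 by norm_num]
        exact Nat.Coprime.pow_left 3 (Nat.coprime_two_left.mpr h7)
      exact h8.dvd_of_dvd_mul_right (by rw [h6]; norm_num)
  have h5 : 0 < Nat.card S := by
    have : Nonempty S := ⟨⟨r, hrP, hr0⟩⟩
    exact Nat.card_pos
  rw [h1, h3] at hm2
  push_cast at hm2
  omega

/-- an involution normalizing an abelian Sylow subgroup of index two in its normalizer inverts it -/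
theorem abel_inv [IsSimpleGroup T] (hnc : ¬ IsMulCommutative T) (P : Sylow 3 T) (hP : Nat.card (P : Subgroup T) = 27)
    (hab : ∀ a ∈ (P : Subgroup T), ∀ b ∈ (P : Subgroup T), a * b = b * a)
    (hN : Nat.card (normalizer ((P : Subgroup T) : Set T)) = 54) {y : T}
    (hy : y ∈ normalizer ((P : Subgroup T) : Set T)) (hy2 : orderOf y = 2) {r : T} (hr : r ∈ (P : Subgroup T)) :
    y * r * y⁻¹ = r⁻¹ := by
  have : Fact (Nat.Prime 3) := ⟨by norm_num⟩
  have hyP : y ∉ (P : Subgroup T) := by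
    intro h
    have h1 := Subgroup.orderOf_dvd_natCard (P : Subgroup T) h
    rw [hy2, hP] at h1
    norm_num at h1
  have hyy : y * y = 1 := by rw [← sq, ← hy2]; exact pow_orderOf_eq_one y
  have hPN : (P : Subgroup T) ≤ normalizer ((P : Subgroup T) : Set T) := le_normalizer
  have hidx : (P : Subgroup T).relIndex (normalizer ((P : Subgroup T) : Set T)) = 2 := by
    have h1 := SmallSimple.relIndex_mul_card_inf (P : Subgroup T) (normalizer ((P : Subgroup T) : Set T))
    rw [inf_eq_left.mpr hPN, hN, hP] at h1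
    omega
  have hcoset : ∀ n ∈ normalizer ((P : Subgroup T) : Set T), n ∉ (P : Subgroup T) → ∃ u ∈ (P : Subgroup T), n = u * y := by
    intro n hn hnP
    refine ⟨n * y⁻¹, ?_, by group⟩
    have h1 : (P.subgroupOf (normalizer ((P : Subgroup T) : Set T))).index = 2 := hidx
    have h2 := (Subgroup.mul_mem_iff_of_index_two h1 (a := ⟨n, hn⟩) (b := ⟨y, hy⟩⁻¹)).mpr (by
      constructor
      · intro h; exact absurd h hnP
      · intro h
        exact absurd ((P : Subgroup T).inv_mem_iff.mp h) hyP)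
    exact h2
  -- the subgroup of inverted elements
  let D : Subgroup T :=
    { carrier := {d | d ∈ (P : Subgroup T) ∧ y * d * y⁻¹ = d⁻¹}
      one_mem' := ⟨one_mem _, by group⟩
      mul_mem' := by
        rintro a b ⟨ha, ha'⟩ ⟨hb, hb'⟩
        refine ⟨mul_mem ha hb, ?_⟩
        calc y * (a * b) * y⁻¹ = (y * a * y⁻¹) * (y * b * y⁻¹) := by group
          _ = a⁻¹ * b⁻¹ := by rw [ha', hb']
          _ = (a * b)⁻¹ := by rw [← mul_inv_rev, hab b hb a ha]
      inv_mem' := by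
        rintro a ⟨ha, ha'⟩
        refine ⟨inv_mem ha, ?_⟩
        calc y * a⁻¹ * y⁻¹ = (y * a * y⁻¹)⁻¹ := by group
          _ = _ := by rw [ha'] }
  have hcomm : ⁅(P : Subgroup T), normalizer ((P : Subgroup T) : Set T)⁆ ≤ D := by
    rw [commutator_le]
    intro x hx n hn
    by_cases hnP : n ∈ (P : Subgroup T)
    · have : ⁅x, n⁆ = 1 := commutatorElement_eq_one_iff_mul_comm.mpr (hab x hx n hnP)
      rw [this]; exact one_mem D
    · obtain ⟨u, hu, rfl⟩ := hcoset n hn hnP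
      have h1 : y * x⁻¹ * y⁻¹ ∈ (P : Subgroup T) := (mem_normalizer_iff.mp hy _).mp (inv_mem hx)
      have h2 : ⁅x, u * y⁆ = x * (y * x⁻¹ * y⁻¹) := by
        rw [commutatorElement_def]
        calc x * (u * y) * x⁻¹ * (u * y)⁻¹ = x * (u * (y * x⁻¹ * y⁻¹)) * u⁻¹ := by group
          _ = _ := by rw [hab u hu _ h1]; group
      rw [h2]
      refine ⟨mul_mem hx h1, ?_⟩
      have h3 : y⁻¹ = y := inv_eq_of_mul_eq_one_left hyy
      have h4 : y * x * y⁻¹ ∈ (P : Subgroup T) := (mem_normalizer_iff.mp hy _).mp hx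
      calc y * (x * (y * x⁻¹ * y⁻¹)) * y⁻¹ = (y * x * y⁻¹) * ((y * y) * x⁻¹ * (y * y)⁻¹) := by group
        _ = (y * x * y⁻¹) * x⁻¹ := by rw [hyy]; group
        _ = x⁻¹ * (y * x * y⁻¹) := by rw [hab _ h4 _ (inv_mem hx)]
        _ = _ := by
          rw [mul_inv_rev]
          have h5 := hab (y * x * y⁻¹) h4 x⁻¹ (inv_mem hx)
          rw [← h5]; group
  have hfoc : (P : Subgroup T).focalSubgroup = (P : Subgroup T) := by
    have h1 := Subgroup.ker_transferFocal_inf_eq_focalSubgroup P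
    have h2 : commutator T = ⊤ := by
      rcases IsSimpleGroup.eq_bot_or_eq_top_of_normal (commutator T) inferInstance with h | h
      · exfalso
        apply hnc
        rw [commutator_eq_bot_iff_center_eq_top] at h
        refine ⟨⟨fun a b => ?_⟩⟩
        have hb : b ∈ center T := by rw [h]; trivial
        exact mem_center_iff.1 hb a
      · exact h
    have h3 := FocalTools.commutator_le_ker_transferFocal (P : Subgroup T)
    rw [h2, top_le_iff] at h3
    rw [h3, top_inf_eq] at h1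
    exact h1.symm
  rw [FusionControl.abelian_focalSubgroup_eq P ⟨⟨fun a b => Subtype.ext (hab a a.2 b b.2)⟩⟩] at hfoc
  have hr' : r ∈ D := hcomm (by
    have h9 : r ∈ ⁅(P : Subgroup T), normalizer (P : Set T)⁆ := by rw [hfoc]; exact hr
    exact h9)
  exact hr'.2

end last

section nonab

variable {T : Type u} [Group T] [Fintype T] {χ : T → ℂ} {k : T → ℤ}

/-- classes of noncentral elements in a nonabelian group of order 27 -/
theorem class27 {Q : Type u} [Group Q] [Finite Q] (hc : Nat.card Q = 27) (hne : commutator Q ≠ ⊥) :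
    Nat.card (center Q) = 3 ∧ commutator Q = center Q ∧
      ∀ x z : Q, x ∉ center Q → z ∈ center Q → ∃ g : Q, g * x * g⁻¹ = x * z := by
  have : Fact (Nat.Prime 3) := ⟨by norm_num⟩
  obtain ⟨h1, h2⟩ := Blackburn.cube (p := 3) (by rw [hc]; norm_num) hne
  refine ⟨h1, h2, fun x z hx hz => ?_⟩
  have hm : ∀ g : Q, g * x * g⁻¹ * x⁻¹ ∈ center Q := by
    intro g
    rw [← h2]
    exact commutator_mem_commutator (mem_top g) (mem_top x)
  let φ : Q →* center Q :=
    { toFun := fun g => ⟨g * x * g⁻¹ * x⁻¹, hm g⟩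
      map_one' := Subtype.ext (by show (1 : Q) * x * 1⁻¹ * x⁻¹ = 1; group)
      map_mul' := fun a b => Subtype.ext (by
        show a * b * x * (a * b)⁻¹ * x⁻¹ = (a * x * a⁻¹ * x⁻¹) * (b * x * b⁻¹ * x⁻¹)
        have h3 := mem_center_iff.mp (hm b) (a * x * a⁻¹ * x⁻¹)
        have h4 := mem_center_iff.mp (hm b) a
        calc a * b * x * (a * b)⁻¹ * x⁻¹ = (a * (b * x * b⁻¹ * x⁻¹)) * x * a⁻¹ * x⁻¹ := by group
          _ = ((b * x * b⁻¹ * x⁻¹) * a) * x * a⁻¹ * x⁻¹ := by rw [h4]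
          _ = (b * x * b⁻¹ * x⁻¹) * (a * x * a⁻¹ * x⁻¹) := by group
          _ = _ := by rw [h3]) }
  have h5 : φ.range = ⊤ := by
    rcases (eq_bot_or_eq_top_of_prime_card (G := center Q) (hp := (by rw [h1]; infer_instance)) φ.range) with h | h
    · exfalso
      apply hx
      rw [mem_center_iff]
      intro g
      have h6 : φ g ∈ φ.range := ⟨g, rfl⟩
      rw [h, mem_bot] at h6
      have h7 : g * x * g⁻¹ * x⁻¹ = 1 := congrArg Subtype.val h6
      rw [mul_inv_eq_one, mul_inv_eq_iff_eq_mul] at h7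
      exact h7
    · exact h
  have h6 : (⟨z, hz⟩ : center Q) ∈ φ.range := by rw [h5]; trivial
  obtain ⟨g, hg⟩ := h6
  refine ⟨g, ?_⟩
  have h7 : g * x * g⁻¹ * x⁻¹ = z := congrArg Subtype.val hg
  rw [← mem_center_iff.mp hz x |>.symm, ← h7]
  group

theorem nonab_zero (hs : ∀ g : T, g ^ 7 = 1 ∨ g ^ 8 = 1 ∨ g ^ 12 = 1) (hχ : IsCharacter T χ) (hk : ∀ g, χ g = k g)
    (h6 : k 1 = 6) (hf : ∀ g, k g = 6 → g = 1) {x z : T} (hx : orderOf x = 3) (hz : orderOf z = 3)
    (hc : Commute x z) (h1 : k (x * z) = k x) (h2 : k (x * z⁻¹) = k x) : k z = -3 ∧ k x = 0 := by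
  have hx3 : x ^ 3 = 1 := by rw [← hx]; exact pow_orderOf_eq_one x
  have hz3 : z ^ 3 = 1 := by rw [← hz]; exact pow_orderOf_eq_one z
  have hcm : ∀ a b, Commute (cyc3 x hx3 a) (cyc3 z hz3 b) := fun a b => hc.pow_pow _ _
  set f := (cyc3 x hx3).noncommCoprod (cyc3 z hz3) hcm with hfdef
  obtain ⟨n, hn⟩ := sum_nat (hχ.comp f) (k := fun a => k (f a)) (fun a => hk _)
  have h3 : k (x⁻¹ * z) = k x := by
    rw [← h2, ← k_inv hχ hk (x * z⁻¹), mul_inv_rev, inv_inv, (hc.inv_left).eq]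
  have h4 : k (x⁻¹ * z⁻¹) = k x := by
    rw [← h1, ← k_inv hχ hk (x * z), mul_inv_rev, (hc.inv_inv).eq]
  have e : ∀ a b, f (a, b) = cyc3 x hx3 a * cyc3 z hz3 b := fun a b => rfl
  have e0 : ∀ (w : T) (hw : w ^ 3 = 1), cyc3 w hw (Multiplicative.ofAdd 0) = 1 := fun w hw => map_one _
  have e1 : ∀ (w : T) (hw : w ^ 3 = 1), cyc3 w hw (Multiplicative.ofAdd 1) = w := fun w hw => by
    show w ^ (1 : ℕ) = w; exact pow_one w
  have e2 : ∀ (w : T) (hw : w ^ 3 = 1), cyc3 w hw (Multiplicative.ofAdd 2) = w⁻¹ := fun w hw => by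
    show w ^ (2 : ℕ) = w⁻¹; exact sq_eq_inv hw
  have hsum : ∑ a, k (f a) = 6 + 2 * k z + 6 * k x := by
    rw [Fintype.sum_prod_type, sum3, sum3, sum3, sum3]
    simp only [e, e0, e1, e2, one_mul, mul_one]
    rw [h6, k_inv hχ hk z, h1, h2, h3, h4, k_inv hχ hk x]; ring
  have hcard : Nat.card (Multiplicative (ZMod 3) × Multiplicative (ZMod 3)) = 9 := by
    rw [Nat.card_prod, card3]
  have hzv := three_vals hχ hk h6 hf hz
  have hxv := three_vals hχ hk h6 hf hx
  rw [hsum, hcard] at hn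
  push_cast at hn
  have hz' : k z = -3 := by omega
  refine ⟨hz', ?_⟩
  have h7 := mono (MonoidHom.inr (Multiplicative (ZMod 3)) (Multiplicative (ZMod 3))) (hχ.comp f)
    (k := fun a => k (f a)) (fun a => hk _) (by
      have h8 : ∀ b, f (MonoidHom.inr (Multiplicative (ZMod 3)) (Multiplicative (ZMod 3)) b) = cyc3 z hz3 b := by
        intro b
        show cyc3 x hx3 1 * cyc3 z hz3 b = _
        rw [map_one, one_mul]
      simp only [h8]
      rw [three_sum hχ hk h6, hz']; norm_num)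
  rw [hsum, hz'] at h7
  omega

theorem nonab_case (hs : ∀ g : T, g ^ 7 = 1 ∨ g ^ 8 = 1 ∨ g ^ 12 = 1) (hχ : IsCharacter T χ) (hk : ∀ g, χ g = k g)
    (h6 : k 1 = 6) (hf : ∀ g, k g = 6 → g = 1)
    (hodd : ∀ x : T, orderOf x = 3 → k x = 0 → Odd (Nat.card (centralizer ({x} : Set T))))
    (P : Sylow 3 T) (hP : Nat.card (P : Subgroup T) = 27)
    (hab : ¬ ∀ a ∈ (P : Subgroup T), ∀ b ∈ (P : Subgroup T), a * b = b * a) {y : T}
    (hy : y ∈ normalizer ((P : Subgroup T) : Set T)) (hy2 : orderOf y = 2)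
    {r : T} (hrP : r ∈ (P : Subgroup T)) (hr : orderOf r = 3) (hr0 : k r = 0) : IsConj r r⁻¹ := by
  classical
  have hne : commutator (P : Subgroup T) ≠ ⊥ := by
    intro h
    apply hab
    rw [commutator_eq_bot_iff_center_eq_top] at h
    intro a ha b hb
    have hb' : (⟨b, hb⟩ : (P : Subgroup T)) ∈ center (P : Subgroup T) := by rw [h]; trivial
    exact congrArg Subtype.val (mem_center_iff.1 hb' ⟨a, ha⟩)
  obtain ⟨hc3, hcc, hcl⟩ := class27 hP hne
  set Z : Subgroup T := (center (P : Subgroup T)).map (P : Subgroup T).subtype with hZ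
  have hZP : ∀ z ∈ Z, z ∈ (P : Subgroup T) := by
    rintro _ ⟨z, -, rfl⟩; exact z.2
  have hmZ : ∀ x, x ∈ Z ↔ ∃ h : x ∈ (P : Subgroup T), (⟨x, h⟩ : (P : Subgroup T)) ∈ center (P : Subgroup T) := by
    intro x
    constructor
    · rintro ⟨z, hz, rfl⟩; exact ⟨z.2, hz⟩
    · rintro ⟨h, hz⟩; exact ⟨_, hz, rfl⟩
  have hZc : ∀ z ∈ Z, ∀ g ∈ (P : Subgroup T), g * z = z * g := by
    intro z hz g hg
    obtain ⟨h, hz⟩ := (hmZ z).mp hz
    exact congrArg Subtype.val (mem_center_iff.1 hz ⟨g, hg⟩)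
  have hZi : ∀ x ∈ (P : Subgroup T), (∀ g ∈ (P : Subgroup T), g * x = x * g) → x ∈ Z := by
    intro x hx h
    refine (hmZ x).mpr ⟨hx, mem_center_iff.mpr fun g => Subtype.ext (h g g.2)⟩
  have hcomm : ∀ a ∈ (P : Subgroup T), ∀ b ∈ (P : Subgroup T), a * b * a⁻¹ * b⁻¹ ∈ Z := by
    intro a ha b hb
    have h1 : (⟨a, ha⟩ : (P : Subgroup T)) * ⟨b, hb⟩ * ⟨a, ha⟩⁻¹ * ⟨b, hb⟩⁻¹ ∈ center (P : Subgroup T) := by
      rw [← hcc]
      exact commutator_mem_commutator (mem_top _) (mem_top _)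
    exact ⟨_, h1, rfl⟩
  have hcl' : ∀ x ∈ (P : Subgroup T), x ∉ Z → ∀ z ∈ Z, ∃ g ∈ (P : Subgroup T), g * x * g⁻¹ = x * z := by
    intro x hx hxZ z hz
    obtain ⟨h, hz⟩ := (hmZ z).mp hz
    obtain ⟨g, hg⟩ := hcl ⟨x, hx⟩ ⟨z, h⟩ (fun hh => hxZ ((hmZ x).mpr ⟨hx, hh⟩)) hz
    exact ⟨g, g.2, congrArg Subtype.val hg⟩
  obtain ⟨z0, hz0, hz01⟩ : ∃ z ∈ Z, z ≠ 1 := by
    by_contra h
    push Not at h
    have : Nat.card (center (P : Subgroup T)) = 1 := by
      rw [Subgroup.card_eq_one, eq_bot_iff]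
      intro z hz
      rw [mem_bot]
      exact Subtype.ext (h z ⟨z, hz, rfl⟩)
    omega
  have hz03 := ord_three hs P (hZP _ hz0) hz01
  have key : ∀ x ∈ (P : Subgroup T), x ∉ Z → k z0 = -3 ∧ k x = 0 := by
    intro x hx hxZ
    have hx1 : x ≠ 1 := by rintro rfl; exact hxZ (one_mem Z)
    obtain ⟨g, hg, h1⟩ := hcl' x hx hxZ z0 hz0
    obtain ⟨g', hg', h2⟩ := hcl' x hx hxZ z0⁻¹ (inv_mem hz0)
    exact nonab_zero hs hχ hk h6 hf (ord_three hs P hx hx1) hz03 (hZc z0 hz0 x hx)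
      (by rw [← h1, k_conj hχ hk]) (by rw [← h2, k_conj hχ hk])
  have hyy : y * y = 1 := by rw [← sq, ← hy2]; exact pow_orderOf_eq_one y
  have hyi : y⁻¹ = y := inv_eq_of_mul_eq_one_left hyy
  have hyP : ∀ x ∈ (P : Subgroup T), y * x * y⁻¹ ∈ (P : Subgroup T) := fun x hx => (mem_normalizer_iff.mp hy x).mp hx
  have hyZ : ∀ z ∈ Z, y * z * y⁻¹ ∈ Z := by
    intro z hz
    refine hZi _ (hyP z (hZP z hz)) fun g hg => ?_
    have h1 := hZc z hz (y * g * y⁻¹) (hyP g hg)
    calc g * (y * z * y⁻¹) = y * ((y⁻¹ * g * y⁻¹⁻¹) * z) * y⁻¹ := by group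
      _ = y * ((y * g * y⁻¹) * z) * y⁻¹ := by rw [hyi, hyi]
      _ = y * (z * (y * g * y⁻¹)) * y⁻¹ := by rw [h1]
      _ = y * z * (y * g * (y * y)⁻¹) := by group
      _ = y * z * (y⁻¹ * g) := by rw [hyy, hyi]; group
      _ = _ := by group
  have c4 : ∀ x ∈ (P : Subgroup T), x ∉ Z → x⁻¹ * (y * x * y⁻¹) ∉ Z := by
    intro x hx hxZ hw
    set w := x⁻¹ * (y * x * y⁻¹) with hwdef
    have h1 : y * x * y⁻¹ = x * w := by rw [hwdef]; group
    have hw3 : w ^ 3 = 1 := pow_three hs P (hZP _ hw)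
    have h2 : y * w * y⁻¹ = w⁻¹ := by
      have h3 : y * (y * x * y⁻¹) * y⁻¹ = x := by
        calc y * (y * x * y⁻¹) * y⁻¹ = (y * y) * x * (y * y)⁻¹ := by group
          _ = x := by rw [hyy]; group
      rw [h1] at h3
      have h4 : (y * x * y⁻¹) * (y * w * y⁻¹) = x := by
        calc (y * x * y⁻¹) * (y * w * y⁻¹) = y * (x * w) * y⁻¹ := by group
          _ = x := h3
      rw [h1, mul_assoc] at h4
      have h5 : w * (y * w * y⁻¹) = 1 := by
        have : x * (w * (y * w * y⁻¹)) = x * 1 := by rw [mul_one]; exact h4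
        exact mul_left_cancel this
      exact (inv_eq_of_mul_eq_one_right h5).symm
    have hx' : x * w⁻¹ ∈ (P : Subgroup T) := mul_mem hx (inv_mem (hZP _ hw))
    have hx'Z : x * w⁻¹ ∉ Z := by
      intro h
      apply hxZ
      have := mul_mem h hw
      simpa using this
    have h3 : y * (x * w⁻¹) * y⁻¹ = x * w⁻¹ := by
      calc y * (x * w⁻¹) * y⁻¹ = (y * x * y⁻¹) * (y * w * y⁻¹)⁻¹ := by group
        _ = x * w * w := by rw [h1, h2, inv_inv]
        _ = x * (w ^ 2) := by rw [sq, mul_assoc]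
        _ = _ := by rw [sq_eq_inv hw3]
    have h4 := (key _ hx' hx'Z).2
    have h5 := hodd (x * w⁻¹) (ord_three hs P hx' (by rintro h; rw [h] at hx'Z; exact hx'Z (one_mem Z))) h4
    have h6 : y ∈ centralizer ({x * w⁻¹} : Set T) := by
      rw [mem_centralizer_singleton_iff]
      exact mul_inv_eq_iff_eq_mul.mp h3
    have h7 := Subgroup.orderOf_dvd_natCard _ h6
    rw [hy2] at h7
    exact (Nat.not_even_iff_odd.mpr h5) (even_iff_two_dvd.mpr h7)
  have hex : ∃ x ∈ (P : Subgroup T), x ∉ Z := by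
    by_contra h
    push Not at h
    exact hab fun a ha b hb => hZc b (h b hb) a ha
  have hrZ : r ∉ Z := by
    intro hrZ
    obtain ⟨x, hx, hxZ⟩ := hex
    have hx1 : x ≠ 1 := by rintro rfl; exact hxZ (one_mem Z)
    obtain ⟨g, hg, h1⟩ := hcl' x hx hxZ r hrZ
    obtain ⟨g', hg', h2⟩ := hcl' x hx hxZ r⁻¹ (inv_mem hrZ)
    have h3 := nonab_zero hs hχ hk h6 hf (ord_three hs P hx hx1) hr (hZc r hrZ x hx)
      (by rw [← h1, k_conj hχ hk]) (by rw [← h2, k_conj hχ hk])
    rw [hr0] at h3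
    exact absurd h3.1 (by norm_num)
  have hu : r * (y * r * y⁻¹) ∈ Z := by
    by_contra hu
    have huP := mul_mem hrP (hyP r hrP)
    apply c4 _ huP hu
    have h1 : y * (r * (y * r * y⁻¹)) * y⁻¹ = (y * r * y⁻¹) * r := by
      calc y * (r * (y * r * y⁻¹)) * y⁻¹ = (y * r) * (y * r * (y * y)⁻¹) := by group
        _ = (y * r) * (y⁻¹ * r) := by rw [hyy, hyi]; group
        _ = _ := by group
    rw [h1]
    have h2 := hcomm _ (inv_mem (hyP r hrP)) _ (inv_mem hrP)
    convert h2 using 1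
    group
  obtain ⟨g, hg, h1⟩ := hcl' r⁻¹ (inv_mem hrP) (fun h => hrZ (by simpa using inv_mem h)) _ hu
  have h2 : IsConj r⁻¹ (y * r * y⁻¹) := isConj_iff.mpr ⟨g, by rw [h1]; group⟩
  have h3 : IsConj r (y * r * y⁻¹) := isConj_iff.mpr ⟨y, rfl⟩
  exact h3.trans h2.symm

end nonab

theorem real_of_zero {T : Type*} [Group T] [Fintype T] [IsSimpleGroup T] (hcard : Nat.card T = 6048)
    (hs : ∀ g : T, g ^ 7 = 1 ∨ g ^ 8 = 1 ∨ g ^ 12 = 1) (χ : T → ℂ) (hχ : IsCharacter T χ) (h1 : χ 1 = 6)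
    (hf : ∀ g, χ g = 6 → g = 1) (hint : ∀ g, ∃ z : ℤ, χ g = z)
    (hodd : ∀ x : T, orderOf x = 3 → χ x = 0 → Odd (Nat.card (Subgroup.centralizer ({x} : Set T))))
    (r : T) (hr : orderOf r = 3) (hr0 : χ r = 0) : IsConj r r⁻¹ := by
  classical
  choose k hk using hint
  have : Fact (Nat.Prime 3) := ⟨by norm_num⟩
  have h6 : k 1 = 6 := by rw [hk] at h1; exact_mod_cast h1
  have hf' : ∀ g, k g = 6 → g = 1 := fun g hg => hf g (by rw [hk, hg]; norm_num)
  have hodd' : ∀ x : T, orderOf x = 3 → k x = 0 → Odd (Nat.card (Subgroup.centralizer ({x} : Set T))) :=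
    fun x hx hx0 => hodd x hx (by rw [hk, hx0]; norm_num)
  have hr0' : k r = 0 := by rw [hk] at hr0; exact_mod_cast hr0
  have hz3 : IsPGroup 3 (zpowers r) := IsPGroup.of_card (n := 1) (by rw [Nat.card_zpowers, hr]; norm_num)
  obtain ⟨P, hP⟩ := hz3.exists_le_sylow
  have hrP : r ∈ (P : Subgroup T) := hP (mem_zpowers r)
  have hP27 : Nat.card (P : Subgroup T) = 27 :=
    SmallSimple.sylow_card_of (p := 3) (k := 3) (m := 224) (by rw [hcard]; norm_num) (by norm_num) P
  have hN := card_norm hcard hs P hP27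
  obtain ⟨y, hy⟩ : ∃ y : normalizer ((P : Subgroup T) : Set T), orderOf y = 2 := by
    have : Fact (Nat.Prime 2) := ⟨by norm_num⟩
    apply exists_prime_orderOf_dvd_card' 2
    rcases hN with h | h <;> rw [h] <;> norm_num
  have hy' : orderOf (y : T) = 2 := by rw [Subgroup.orderOf_coe]; exact hy
  by_cases hab : ∀ a ∈ (P : Subgroup T), ∀ b ∈ (P : Subgroup T), a * b = b * a
  · have h54 := hN.resolve_right (abel_card hs hχ hk h6 hf' hodd' P hP27 hab hrP hr hr0')
    have hnc := SmallSimple.not_isMulCommutative_of_card (G := T) hcard (by norm_num)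
    exact isConj_iff.mpr ⟨y, abel_inv hnc P hP27 hab h54 y.2 hy' hrP⟩
  · exact nonab_case hs hχ hk h6 hf' hodd' P hP27 hab y.2 hy' hrP hr hr0'

end Cfsg.Agent.Lib.GT27Real
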