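import Cfsg.Agent.Lib.GTwoOrd

/-!
# The order of `G₂(q)`: `q⁶ (q⁶ - 1) (q² - 1)`
-/

set_option autoImplicit false

namespace Cfsg.Agent.Lib.GTwo

open Cfsg.Lie

variable {F : Type*} [Field F] [Fintype F]

/-- The number of solutions of a linear equation in three unknowns. -/
theorem card_linear {a : Fin 3 → F} (ha : a ≠ 0) (c : F) :
    Nat.card {b : Fin 3 → F // a 0 * b 0 + a 1 * b 1 + a 2 * b 2 = c} = (Fintype.card F) ^ 2 := by
  classical
  have hsur : ∀ d : F, ∃ v : Fin 3 → F, a 0 * v 0 + a 1 * v 1 + a 2 * v 2 = d := by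
    intro d
    obtain ⟨i, hi⟩ := Function.ne_iff.mp ha
    rw [Pi.zero_apply] at hi
    refine ⟨Pi.single i (d / a i), ?_⟩
    fin_cases i
    · simp at hi ⊢
      field_simp
    · simp at hi ⊢
      field_simp
    · simp at hi ⊢
      field_simp
  have hfib : ∀ d, Nat.card {b : Fin 3 → F // a 0 * b 0 + a 1 * b 1 + a 2 * b 2 = d} =
      Nat.card {b : Fin 3 → F // a 0 * b 0 + a 1 * b 1 + a 2 * b 2 = c} := by
    intro d
    obtain ⟨v, hv⟩ := hsur (c - d)
    refine Nat.card_congr ((Equiv.addRight v).subtypeEquiv fun b => ?_)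
    change _ ↔ a 0 * (b 0 + v 0) + a 1 * (b 1 + v 1) + a 2 * (b 2 + v 2) = c
    constructor
    · intro h
      linear_combination h + hv
    · intro h
      linear_combination h - hv
  have htot : Nat.card (Fin 3 → F) =
      ∑ d : F, Nat.card {b : Fin 3 → F // a 0 * b 0 + a 1 * b 1 + a 2 * b 2 = d} := by
    rw [← Nat.card_sigma]
    exact Nat.card_congr (Equiv.sigmaFiberEquiv _).symm
  rw [Finset.sum_congr rfl fun d _ => hfib d, Finset.sum_const, Finset.card_univ, smul_eq_mul,
    Nat.card_fun, Nat.card_fin, Nat.card_eq_fintype_card] at htot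
  have hq : 0 < Fintype.card F := Fintype.card_pos
  apply Nat.eq_of_mul_eq_mul_left hq
  rw [← htot]
  ring

theorem card_Idem : (Idem F).ncard = (Fintype.card F) ^ 3 * ((Fintype.card F) ^ 3 + 1) := by
  classical
  let e : Idem F ≃ Σ p : (Fin 3 → F) × F, {b : Fin 3 → F // p.1 0 * b 0 + p.1 1 * b 1 + p.1 2 * b 2 =
      p.2 * (1 - p.2)} :=
    { toFun := fun x => ⟨(![x.1 1, x.1 2, x.1 3], x.1 0), ⟨![x.1 4, x.1 5, x.1 6], by
        obtain ⟨h1, h2⟩ := x.2
        simp only [Matrix.cons_val]
        linear_combination x.1 0 * h1 - h2⟩⟩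
      invFun := fun y => ⟨![y.1.2, y.1.1 0, y.1.1 1, y.1.1 2, y.2.1 0, y.2.1 1, y.2.1 2, 1 - y.1.2], by
        have h := y.2.2
        constructor
        · simp
        · simp only [Matrix.cons_val]
          exact h.symm⟩
      left_inv := by
        rintro ⟨x, h1, h2⟩
        apply Subtype.ext
        apply vec8_ext <;> try rfl
        simp only [Matrix.cons_val]
        linear_combination -h1
      right_inv := by
        rintro ⟨⟨a, c⟩, ⟨b, hb⟩⟩
        have ha : (![a 0, a 1, a 2] : Fin 3 → F) = a := by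
          funext i
          fin_cases i <;> rfl
        have hb' : (![b 0, b 1, b 2] : Fin 3 → F) = b := by
          funext i
          fin_cases i <;> rfl
        simp only [Matrix.cons_val]
        congr 1
        · rw [ha]
        · congr 1 }
  have h1 : (Idem F).ncard = Nat.card (Idem F) := (Nat.card_coe_set_eq _).symm
  rw [h1, Nat.card_congr e, Nat.card_sigma, Fintype.sum_prod_type,
    ← Finset.add_sum_erase _ _ (Finset.mem_univ (0 : Fin 3 → F))]
  have hz : ∑ y : F, Nat.card {b : Fin 3 → F // (0 : Fin 3 → F) 0 * b 0 + (0 : Fin 3 → F) 1 * b 1 +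
      (0 : Fin 3 → F) 2 * b 2 = y * (1 - y)} = 2 * (Fintype.card F) ^ 3 := by
    have h3 : ∀ y : F, Nat.card {b : Fin 3 → F // (0 : Fin 3 → F) 0 * b 0 + (0 : Fin 3 → F) 1 * b 1 +
      (0 : Fin 3 → F) 2 * b 2 = y * (1 - y)} =
        if y ∈ ({0, 1} : Finset F) then (Fintype.card F) ^ 3 else 0 := by
      intro y
      simp only [Pi.zero_apply, zero_mul, add_zero]
      split_ifs with hy
      · have h4 : (0 : F) = y * (1 - y) := by
          simp only [Finset.mem_insert, Finset.mem_singleton] at hy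
          rcases hy with rfl | rfl <;> ring
        rw [Nat.card_congr (Equiv.subtypeUnivEquiv fun _ => h4), Nat.card_fun, Nat.card_fin,
          Nat.card_eq_fintype_card]
      · have h4 : ¬ (0 : F) = y * (1 - y) := by
          intro h
          apply hy
          simp only [Finset.mem_insert, Finset.mem_singleton]
          rcases mul_eq_zero.mp h.symm with h | h
          · left; exact h
          · right; linear_combination -h
        have : IsEmpty {b : Fin 3 → F // (0 : F) = y * (1 - y)} := ⟨fun b => h4 b.2⟩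
        exact Nat.card_of_isEmpty
    rw [Finset.sum_congr rfl fun y _ => h3 y, Finset.sum_ite_mem, Finset.univ_inter, Finset.sum_const,
      Finset.card_pair zero_ne_one, smul_eq_mul]
  have hnz : ∀ a ∈ Finset.univ.erase (0 : Fin 3 → F),
      ∑ y : F, Nat.card {b : Fin 3 → F // a 0 * b 0 + a 1 * b 1 + a 2 * b 2 = y * (1 - y)} =
        (Fintype.card F) ^ 3 := by
    intro a ha
    rw [Finset.sum_congr rfl fun y _ => card_linear (Finset.ne_of_mem_erase ha) _, Finset.sum_const,
      Finset.card_univ, smul_eq_mul]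
    ring
  rw [hz, Finset.sum_congr rfl hnz, Finset.sum_const, Finset.card_erase_of_mem (Finset.mem_univ _),
    Finset.card_univ, Fintype.card_fun, Fintype.card_fin, smul_eq_mul]
  have hq : 0 < (Fintype.card F) ^ 3 := pow_pos Fintype.card_pos _
  obtain ⟨t, ht⟩ : ∃ t, (Fintype.card F) ^ 3 = t + 1 := ⟨(Fintype.card F) ^ 3 - 1, by omega⟩
  rw [ht, Nat.add_sub_cancel]
  ring

instance : Finite ((Fin 8 → F) ≃ₗ[F] (Fin 8 → F)) := DFunLike.finite _

theorem card_G2L : Nat.card (G2L F) = (Fintype.card F) ^ 3 * ((Fintype.card F) ^ 3 + 1) *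
    Nat.card (Matrix.SpecialLinearGroup (Fin 3) F) := by
  rw [← card_stabilizer, ← card_Idem, ← orbit_eq, ← MulAction.index_stabilizer, mul_comm,
    Subgroup.card_mul_index]

/-- The order of `G₂(q)`. -/
theorem card_G2 : Nat.card (G2 F) = (Fintype.card F) ^ 6 * ((Fintype.card F) ^ 6 - 1) *
    ((Fintype.card F) ^ 2 - 1) := by
  rw [Nat.card_congr (g2Equiv F).toEquiv, card_G2L]
  have h1 := ClSLn.card_SL_formula (F := F) rfl 3 (by norm_num)
  have hq : 1 < Fintype.card F := Fintype.one_lt_card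
  rw [Finset.prod_range_succ, Finset.prod_range_succ, Finset.prod_range_succ, Finset.prod_range_zero, one_mul] at h1
  norm_num at h1
  have h3 : (Fintype.card F - 1) * Nat.card (Matrix.SpecialLinearGroup (Fin 3) F) =
      (Fintype.card F - 1) * ((Fintype.card F) ^ 3 * (((Fintype.card F) ^ 2 - 1) * ((Fintype.card F) ^ 3 - 1))) := by
    rw [h1]; ring
  have h4 := Nat.eq_of_mul_eq_mul_left (show 0 < Fintype.card F - 1 by omega) h3
  have h5 : (Fintype.card F) ^ 6 - 1 = ((Fintype.card F) ^ 3 + 1) * ((Fintype.card F) ^ 3 - 1) := by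
    obtain ⟨t, ht⟩ : ∃ t, (Fintype.card F) ^ 3 = t + 1 :=
      ⟨(Fintype.card F) ^ 3 - 1, by have := pow_pos (show 0 < Fintype.card F by omega) 3; omega⟩
    have h6 : (Fintype.card F) ^ 6 = (t + 1) ^ 2 := by rw [← ht]; ring
    rw [h6, ht, Nat.add_sub_cancel]
    have : (t + 1) ^ 2 = (t + 1 + 1) * t + 1 := by ring
    rw [this, Nat.add_sub_cancel]
  rw [h4, h5]
  ring

end Cfsg.Agent.Lib.GTwo
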