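import Cfsg.Prelude.Def_G2
import Cfsg.Agent.Lib.ClIso

/-!
# Automorphisms of the Zorn algebra
-/

set_option autoImplicit false

namespace Cfsg.Agent.Lib.GTwo

open Cfsg.Lie

variable {F : Type*} [Field F]

/-- The coordinates of the Zorn product. -/
theorem zornMul_eq (x y : Fin 8 → F) : zornMul x y =
    ![x 0 * y 0 + (x 1 * y 4 + x 2 * y 5 + x 3 * y 6),
      x 0 * y 1 + y 7 * x 1 - (x 5 * y 6 - x 6 * y 5),
      x 0 * y 2 + y 7 * x 2 - (x 6 * y 4 - x 4 * y 6),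
      x 0 * y 3 + y 7 * x 3 - (x 4 * y 5 - x 5 * y 4),
      y 0 * x 4 + x 7 * y 4 + (x 2 * y 3 - x 3 * y 2),
      y 0 * x 5 + x 7 * y 5 + (x 3 * y 1 - x 1 * y 3),
      y 0 * x 6 + x 7 * y 6 + (x 1 * y 2 - x 2 * y 1),
      x 4 * y 1 + x 5 * y 2 + x 6 * y 3 + x 7 * y 7] := rfl

variable (F) in
/-- The automorphism group of the Zorn algebra, as linear maps. -/
def G2L : Subgroup ((Fin 8 → F) ≃ₗ[F] (Fin 8 → F)) where
  carrier := {g | ∀ x y, g (zornMul x y) = zornMul (g x) (g y)}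
  one_mem' _ _ := rfl
  mul_mem' {g h} hg hh x y := by
    change g (h (zornMul x y)) = zornMul (g (h x)) (g (h y))
    rw [hh, hg]
  inv_mem' {g} hg x y := by
    apply g.injective
    change g (g.symm (zornMul x y)) = g (zornMul (g.symm x) (g.symm y))
    rw [hg, LinearEquiv.apply_symm_apply, LinearEquiv.apply_symm_apply, LinearEquiv.apply_symm_apply]

variable (F) in
/-- `G₂(F)` as linear maps. -/
noncomputable def g2Equiv : G2 F ≃* G2L F :=
  ClIso.subgroupEquivOfIff (ClIso.glEquiv (Fin 8) F) (G2 F) (G2L F) fun _ => Iff.rfl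

/-- Extensionality for products. -/
theorem vec8_ext {a b : Fin 8 → F} (h0 : a 0 = b 0) (h1 : a 1 = b 1) (h2 : a 2 = b 2) (h3 : a 3 = b 3)
    (h4 : a 4 = b 4) (h5 : a 5 = b 5) (h6 : a 6 = b 6) (h7 : a 7 = b 7) : a = b := by
  funext i
  fin_cases i <;> assumption

/-- The short root elements. -/
def gu (u : Fin 3 → F) (x : Fin 8 → F) : Fin 8 → F :=
  ![x 0 - (u 0 * x 4 + u 1 * x 5 + u 2 * x 6),
    x 1 + (x 0 - x 7 - (u 0 * x 4 + u 1 * x 5 + u 2 * x 6)) * u 0,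
    x 2 + (x 0 - x 7 - (u 0 * x 4 + u 1 * x 5 + u 2 * x 6)) * u 1,
    x 3 + (x 0 - x 7 - (u 0 * x 4 + u 1 * x 5 + u 2 * x 6)) * u 2,
    x 4 + (u 1 * x 3 - u 2 * x 2),
    x 5 + (u 2 * x 1 - u 0 * x 3),
    x 6 + (u 0 * x 2 - u 1 * x 1),
    x 7 + (u 0 * x 4 + u 1 * x 5 + u 2 * x 6)]

theorem gu_neg (u : Fin 3 → F) (x : Fin 8 → F) : gu (-u) (gu u x) = x := by
  apply vec8_ext <;> simp only [gu, Pi.neg_apply, Matrix.cons_val] <;> ring

/-- The short root element. -/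
def guE (u : Fin 3 → F) : (Fin 8 → F) ≃ₗ[F] (Fin 8 → F) where
  toFun := gu u
  invFun := gu (-u)
  map_add' x y := by
    apply vec8_ext <;> simp only [gu, Pi.add_apply, Matrix.cons_val] <;> ring
  map_smul' c x := by
    apply vec8_ext <;> simp only [gu, Pi.smul_apply, smul_eq_mul, RingHom.id_apply, Matrix.cons_val] <;> ring
  left_inv x := gu_neg u x
  right_inv x := by
    have := gu_neg (-u) x
    rwa [neg_neg] at this

theorem gu_mul (u : Fin 3 → F) (x y : Fin 8 → F) :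
    gu u (zornMul x y) = zornMul (gu u x) (gu u y) := by
  rw [zornMul_eq, zornMul_eq]
  apply vec8_ext <;> simp only [gu, Matrix.cons_val] <;> ring

theorem guE_mem (u : Fin 3 → F) : guE u ∈ G2L F := fun x y => gu_mul u x y

/-- The swap of the two halves. -/
def tauE (F : Type*) [Field F] : (Fin 8 → F) ≃ₗ[F] (Fin 8 → F) where
  toFun x := ![x 7, -x 4, -x 5, -x 6, -x 1, -x 2, -x 3, x 0]
  invFun x := ![x 7, -x 4, -x 5, -x 6, -x 1, -x 2, -x 3, x 0]
  map_add' x y := by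
    apply vec8_ext <;> simp only [Pi.add_apply, Matrix.cons_val] <;> ring
  map_smul' c x := by
    apply vec8_ext <;> simp only [Pi.smul_apply, smul_eq_mul, RingHom.id_apply, Matrix.cons_val] <;> ring
  left_inv x := by
    apply vec8_ext <;> simp only [Matrix.cons_val] <;> ring
  right_inv x := by
    apply vec8_ext <;> simp only [Matrix.cons_val] <;> ring

theorem tauE_apply (x : Fin 8 → F) : tauE F x = ![x 7, -x 4, -x 5, -x 6, -x 1, -x 2, -x 3, x 0] := rfl

theorem tauE_mem : tauE F ∈ G2L F := by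
  intro x y
  rw [tauE_apply, tauE_apply, tauE_apply, zornMul_eq, zornMul_eq]
  apply vec8_ext <;> simp only [Matrix.cons_val] <;> ring

/-- The image of a pair of matrices. -/
def act3 (A B : Matrix (Fin 3) (Fin 3) F) (x : Fin 8 → F) : Fin 8 → F :=
  ![x 0,
    A 0 0 * x 1 + A 0 1 * x 2 + A 0 2 * x 3,
    A 1 0 * x 1 + A 1 1 * x 2 + A 1 2 * x 3,
    A 2 0 * x 1 + A 2 1 * x 2 + A 2 2 * x 3,
    B 0 0 * x 4 + B 0 1 * x 5 + B 0 2 * x 6,
    B 1 0 * x 4 + B 1 1 * x 5 + B 1 2 * x 6,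
    B 2 0 * x 4 + B 2 1 * x 5 + B 2 2 * x 6,
    x 7]

theorem act3_comp (A B A' B' : Matrix (Fin 3) (Fin 3) F) (x : Fin 8 → F) :
    act3 A B (act3 A' B' x) = act3 (A * A') (B * B') x := by
  apply vec8_ext <;> simp only [act3, Matrix.cons_val, Matrix.mul_apply, Fin.sum_univ_three] <;> ring

theorem act3_one (x : Fin 8 → F) : act3 1 1 x = x := by
  apply vec8_ext <;> simp [act3]

/-- The matrix of cofactors. -/
def cof (A : Matrix (Fin 3) (Fin 3) F) : Matrix (Fin 3) (Fin 3) F :=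
  !![A 1 1 * A 2 2 - A 1 2 * A 2 1, A 1 2 * A 2 0 - A 1 0 * A 2 2, A 1 0 * A 2 1 - A 1 1 * A 2 0;
    A 2 1 * A 0 2 - A 2 2 * A 0 1, A 2 2 * A 0 0 - A 2 0 * A 0 2, A 2 0 * A 0 1 - A 2 1 * A 0 0;
    A 0 1 * A 1 2 - A 0 2 * A 1 1, A 0 2 * A 1 0 - A 0 0 * A 1 2, A 0 0 * A 1 1 - A 0 1 * A 1 0]

theorem cof_mul (A A' : Matrix (Fin 3) (Fin 3) F) : cof (A * A') = cof A * cof A' := by
  ext i j
  fin_cases i <;> fin_cases j <;>
    simp [cof, Matrix.mul_apply, Fin.sum_univ_three] <;> ring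

theorem cof_one : cof (1 : Matrix (Fin 3) (Fin 3) F) = 1 := by
  ext i j
  fin_cases i <;> fin_cases j <;> simp [cof]

theorem act3_mul {A : Matrix (Fin 3) (Fin 3) F} (hA : A.det = 1) (x y : Fin 8 → F) :
    act3 A (cof A) (zornMul x y) = zornMul (act3 A (cof A) x) (act3 A (cof A) y) := by
  rw [Matrix.det_fin_three] at hA
  rw [zornMul_eq, zornMul_eq]
  apply vec8_ext
  · simp only [act3, Matrix.cons_val, cof, Matrix.of_apply]
    linear_combination (-(x 1 * y 4 + x 2 * y 5 + x 3 * y 6)) * hA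
  · simp only [act3, Matrix.cons_val, cof, Matrix.of_apply]
    linear_combination (A 0 0 * (x 5 * y 6 - x 6 * y 5) + A 0 1 * (x 6 * y 4 - x 4 * y 6) +
      A 0 2 * (x 4 * y 5 - x 5 * y 4)) * hA
  · simp only [act3, Matrix.cons_val, cof, Matrix.of_apply]
    linear_combination (A 1 0 * (x 5 * y 6 - x 6 * y 5) + A 1 1 * (x 6 * y 4 - x 4 * y 6) +
      A 1 2 * (x 4 * y 5 - x 5 * y 4)) * hA
  · simp only [act3, Matrix.cons_val, cof, Matrix.of_apply]
    linear_combination (A 2 0 * (x 5 * y 6 - x 6 * y 5) + A 2 1 * (x 6 * y 4 - x 4 * y 6) +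
      A 2 2 * (x 4 * y 5 - x 5 * y 4)) * hA
  · simp only [act3, Matrix.cons_val, cof, Matrix.of_apply]
    ring
  · simp only [act3, Matrix.cons_val, cof, Matrix.of_apply]
    ring
  · simp only [act3, Matrix.cons_val, cof, Matrix.of_apply]
    ring
  · simp only [act3, Matrix.cons_val, cof, Matrix.of_apply]
    linear_combination (-(x 4 * y 1 + x 5 * y 2 + x 6 * y 3)) * hA

/-- `SL₃(F)` acting on the Zorn algebra. -/
def sl3E (A : Matrix.SpecialLinearGroup (Fin 3) F) : (Fin 8 → F) ≃ₗ[F] (Fin 8 → F) where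
  toFun := act3 A.1 (cof A.1)
  invFun := act3 (A⁻¹).1 (cof (A⁻¹).1)
  map_add' x y := by
    apply vec8_ext <;> simp only [act3, Pi.add_apply, Matrix.cons_val] <;> ring
  map_smul' c x := by
    apply vec8_ext <;> simp only [act3, Pi.smul_apply, smul_eq_mul, RingHom.id_apply, Matrix.cons_val] <;> ring
  left_inv x := by
    rw [act3_comp, ← cof_mul, ← Matrix.SpecialLinearGroup.coe_mul, inv_mul_cancel,
      Matrix.SpecialLinearGroup.coe_one, cof_one, act3_one]
  right_inv x := by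
    rw [act3_comp, ← cof_mul, ← Matrix.SpecialLinearGroup.coe_mul, mul_inv_cancel,
      Matrix.SpecialLinearGroup.coe_one, cof_one, act3_one]

theorem sl3E_mem (A : Matrix.SpecialLinearGroup (Fin 3) F) : sl3E A ∈ G2L F := fun x y => act3_mul A.2 x y

end Cfsg.Agent.Lib.GTwo
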