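import Cfsg.Agent.Lib.GTwoElt
import Cfsg.Agent.Lib.ClSLn

/-!
# The order of `G₂(q)`
-/

set_option autoImplicit false

namespace Cfsg.Agent.Lib.GTwo

open Cfsg.Lie

variable {F : Type*} [Field F]

variable (F) in
/-- The first idempotent. -/
def e0 : Fin 8 → F := ![1, 0, 0, 0, 0, 0, 0, 0]

variable (F) in
/-- The identity. -/
def oneZ : Fin 8 → F := ![1, 0, 0, 0, 0, 0, 0, 1]

theorem one_mulZ (x : Fin 8 → F) : zornMul (oneZ F) x = x := by
  rw [zornMul_eq]
  apply vec8_ext <;> simp [oneZ]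

theorem mul_oneZ (x : Fin 8 → F) : zornMul x (oneZ F) = x := by
  rw [zornMul_eq]
  apply vec8_ext <;> simp [oneZ]

theorem map_oneZ {g : (Fin 8 → F) ≃ₗ[F] (Fin 8 → F)} (hg : g ∈ G2L F) : g (oneZ F) = oneZ F := by
  have h1 := hg (oneZ F) (g.symm (oneZ F))
  rw [one_mulZ, LinearEquiv.apply_symm_apply, mul_oneZ] at h1
  exact h1.symm

variable (F) in
/-- The non-trivial idempotents. -/
def Idem : Set (Fin 8 → F) := {x | x 0 + x 7 = 1 ∧ x 0 * x 7 = x 1 * x 4 + x 2 * x 5 + x 3 * x 6}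

theorem mem_Idem_iff (x : Fin 8 → F) : x ∈ Idem F ↔ zornMul x x = x ∧ x ≠ 0 ∧ x ≠ oneZ F := by
  constructor
  · rintro ⟨h1, h2⟩
    refine ⟨?_, ?_, ?_⟩
    · rw [zornMul_eq]
      apply vec8_ext
      · simp only [Matrix.cons_val]; linear_combination x 0 * h1 - h2
      · simp only [Matrix.cons_val]; linear_combination x 1 * h1
      · simp only [Matrix.cons_val]; linear_combination x 2 * h1
      · simp only [Matrix.cons_val]; linear_combination x 3 * h1
      · simp only [Matrix.cons_val]; linear_combination x 4 * h1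
      · simp only [Matrix.cons_val]; linear_combination x 5 * h1
      · simp only [Matrix.cons_val]; linear_combination x 6 * h1
      · simp only [Matrix.cons_val]; linear_combination x 7 * h1 - h2
    · rintro rfl
      simp at h1
    · rintro rfl
      simp [oneZ] at h2
  · rintro ⟨h, h0, h1⟩
    rw [zornMul_eq] at h
    have e := fun i => congrFun h i
    have e0 := e 0
    have e1 := e 1
    have e2 := e 2
    have e3 := e 3
    have e4 := e 4
    have e5 := e 5
    have e6 := e 6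
    have e7 := e 7
    simp only [Matrix.cons_val] at e0 e1 e2 e3 e4 e5 e6 e7
    have hs : x 0 + x 7 = 1 := by
      by_contra hne
      have hne' : x 0 + x 7 - 1 ≠ 0 := sub_ne_zero.mpr hne
      have z1 : x 1 = 0 := (mul_eq_zero.mp (show (x 0 + x 7 - 1) * x 1 = 0 by linear_combination e1)).resolve_left hne'
      have z2 : x 2 = 0 := (mul_eq_zero.mp (show (x 0 + x 7 - 1) * x 2 = 0 by linear_combination e2)).resolve_left hne'
      have z3 : x 3 = 0 := (mul_eq_zero.mp (show (x 0 + x 7 - 1) * x 3 = 0 by linear_combination e3)).resolve_left hne'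
      have z4 : x 4 = 0 := (mul_eq_zero.mp (show (x 0 + x 7 - 1) * x 4 = 0 by linear_combination e4)).resolve_left hne'
      have z5 : x 5 = 0 := (mul_eq_zero.mp (show (x 0 + x 7 - 1) * x 5 = 0 by linear_combination e5)).resolve_left hne'
      have z6 : x 6 = 0 := (mul_eq_zero.mp (show (x 0 + x 7 - 1) * x 6 = 0 by linear_combination e6)).resolve_left hne'
      rw [z1, z2, z3] at e0 e7
      have f0 : x 0 * (x 0 - 1) = 0 := by linear_combination e0
      have f7 : x 7 * (x 7 - 1) = 0 := by linear_combination e7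
      rcases mul_eq_zero.mp f0 with a | a <;> rcases mul_eq_zero.mp f7 with b | b
      · exact h0 (by apply vec8_ext <;> simp only [Pi.zero_apply] <;> assumption)
      · apply hne
        rw [a, zero_add]
        linear_combination b
      · apply hne
        rw [b, add_zero]
        linear_combination a
      · apply h1
        apply vec8_ext
        · simp only [oneZ, Matrix.cons_val]; linear_combination a
        · simp only [oneZ, Matrix.cons_val]; exact z1
        · simp only [oneZ, Matrix.cons_val]; exact z2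
        · simp only [oneZ, Matrix.cons_val]; exact z3
        · simp only [oneZ, Matrix.cons_val]; exact z4
        · simp only [oneZ, Matrix.cons_val]; exact z5
        · simp only [oneZ, Matrix.cons_val]; exact z6
        · simp only [oneZ, Matrix.cons_val]; linear_combination b
    refine ⟨hs, ?_⟩
    linear_combination x 0 * hs - e0

theorem Idem_stable {g : (Fin 8 → F) ≃ₗ[F] (Fin 8 → F)} (hg : g ∈ G2L F) {x : Fin 8 → F}
    (hx : x ∈ Idem F) : g x ∈ Idem F := by
  rw [mem_Idem_iff] at hx ⊢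
  obtain ⟨h1, h2, h3⟩ := hx
  refine ⟨by rw [← hg, h1], ?_, ?_⟩
  · intro h
    exact h2 (g.map_eq_zero_iff.mp h)
  · intro h
    rw [← map_oneZ hg] at h
    exact h3 (g.injective h)

theorem e0_mem_Idem : e0 F ∈ Idem F := by
  constructor <;> simp [e0]

theorem conj_of {h : (Fin 8 → F) ≃ₗ[F] (Fin 8 → F)} (hh : h ∈ G2L F) {x : Fin 8 → F}
    (hx : ∃ g ∈ G2L F, g (h x) = e0 F) : ∃ g ∈ G2L F, g x = e0 F := by
  obtain ⟨g, hg, hgx⟩ := hx
  exact ⟨g * h, mul_mem hg hh, hgx⟩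

theorem conj_of_b {x : Fin 8 → F} (hx : x ∈ Idem F) (h4 : x 4 = 0) (h5 : x 5 = 0) (h6 : x 6 = 0) :
    ∃ g ∈ G2L F, g x = e0 F := by
  obtain ⟨h1, h2⟩ := hx
  rw [h4, h5, h6] at h2
  have h3 : x 0 * x 7 = 0 := by rw [h2]; ring
  rcases mul_eq_zero.mp h3 with h0 | h7
  · have h7 : x 7 = 1 := by rw [h0, zero_add] at h1; exact h1
    refine conj_of (guE_mem ![x 1, x 2, x 3]) ⟨tauE F, tauE_mem, ?_⟩
    change tauE F (gu ![x 1, x 2, x 3] x) = e0 F
    rw [tauE_apply]
    apply vec8_ext <;> simp [gu, e0, h0, h4, h5, h6, h7, mul_comm]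
  · have h0 : x 0 = 1 := by rw [h7, add_zero] at h1; exact h1
    refine ⟨guE ![-x 1, -x 2, -x 3], guE_mem _, ?_⟩
    change gu ![-x 1, -x 2, -x 3] x = e0 F
    apply vec8_ext <;> simp [gu, e0, h0, h4, h5, h6, h7, mul_comm]

theorem conj_e0 {x : Fin 8 → F} (hx : x ∈ Idem F) : ∃ g ∈ G2L F, g x = e0 F := by
  by_cases hb : x 4 = 0 ∧ x 5 = 0 ∧ x 6 = 0
  · exact conj_of_b hx hb.1 hb.2.1 hb.2.2
  -- first make `x 0 = 1`
  have h1 : ∀ y : Fin 8 → F, y ∈ Idem F → y 0 = 1 → ∃ g ∈ G2L F, g y = e0 F := by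
    intro y hy hy0
    obtain ⟨a1, a2⟩ := id hy
    have hy7 : y 7 = 0 := by rw [hy0] at a1; linear_combination a1
    rw [hy7, mul_zero] at a2
    refine conj_of tauE_mem (conj_of (guE_mem ![-y 4, -y 5, -y 6]) (conj_of tauE_mem ?_))
    apply conj_of_b
    · exact Idem_stable tauE_mem (Idem_stable (guE_mem _) (Idem_stable tauE_mem hy))
    · change tauE F (gu ![-y 4, -y 5, -y 6] (tauE F y)) 4 = 0
      rw [tauE_apply, tauE_apply]
      simp only [gu, Matrix.cons_val]
      rw [hy0, hy7]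
      linear_combination (y 4) * a2
    · change tauE F (gu ![-y 4, -y 5, -y 6] (tauE F y)) 5 = 0
      rw [tauE_apply, tauE_apply]
      simp only [gu, Matrix.cons_val]
      rw [hy0, hy7]
      linear_combination (y 5) * a2
    · change tauE F (gu ![-y 4, -y 5, -y 6] (tauE F y)) 6 = 0
      rw [tauE_apply, tauE_apply]
      simp only [gu, Matrix.cons_val]
      rw [hy0, hy7]
      linear_combination (y 6) * a2
  obtain ⟨u, hu⟩ : ∃ u : Fin 3 → F, u 0 * x 4 + u 1 * x 5 + u 2 * x 6 = x 0 - 1 := by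
    by_cases h4 : x 4 = 0
    · by_cases h5 : x 5 = 0
      · have h6 : x 6 ≠ 0 := fun h6 => hb ⟨h4, h5, h6⟩
        refine ⟨![0, 0, (x 0 - 1) / x 6], ?_⟩
        simp only [Matrix.cons_val]
        field_simp
        ring
      · refine ⟨![0, (x 0 - 1) / x 5, 0], ?_⟩
        simp only [Matrix.cons_val]
        field_simp
        ring
    · refine ⟨![(x 0 - 1) / x 4, 0, 0], ?_⟩
      simp only [Matrix.cons_val]
      field_simp
      ring
  refine conj_of (guE_mem u) (h1 _ (Idem_stable (guE_mem u) hx) ?_)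
  change gu u x 0 = 1
  simp only [gu, Matrix.cons_val]
  rw [hu]
  ring

/-! ### The stabilizer -/

theorem stab_eq {g : (Fin 8 → F) ≃ₗ[F] (Fin 8 → F)} (hg : g ∈ G2L F) (h0 : g (e0 F) = e0 F) :
    ∃ A : Matrix.SpecialLinearGroup (Fin 3) F, g = sl3E A := by
  have hA : ∀ x : Fin 8 → F, zornMul (e0 F) x = x → zornMul x (e0 F) = 0 →
      x = ![0, x 1, x 2, x 3, 0, 0, 0, 0] := by
    intro x h1 h2
    rw [zornMul_eq] at h1 h2
    have a4 := congrFun h1 4
    have a5 := congrFun h1 5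
    have a6 := congrFun h1 6
    have a7 := congrFun h1 7
    have b0 := congrFun h2 0
    simp [e0] at a4 a5 a6 a7 b0
    apply vec8_ext
    · exact b0
    · rfl
    · rfl
    · rfl
    · exact a4.symm
    · exact a5.symm
    · exact a6.symm
    · exact a7.symm
  have hB : ∀ x : Fin 8 → F, zornMul x (e0 F) = x → zornMul (e0 F) x = 0 →
      x = ![0, 0, 0, 0, x 4, x 5, x 6, 0] := by
    intro x h1 h2
    rw [zornMul_eq] at h1 h2
    have a1 := congrFun h1 1
    have a2 := congrFun h1 2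
    have a3 := congrFun h1 3
    have a7 := congrFun h1 7
    have b0 := congrFun h2 0
    simp [e0] at a1 a2 a3 a7 b0
    apply vec8_ext
    · exact b0
    · exact a1.symm
    · exact a2.symm
    · exact a3.symm
    · rfl
    · rfl
    · rfl
    · exact a7.symm
  have gA : ∀ p q r : F, g ![0, p, q, r, 0, 0, 0, 0] =
      ![0, g ![0, p, q, r, 0, 0, 0, 0] 1, g ![0, p, q, r, 0, 0, 0, 0] 2,
        g ![0, p, q, r, 0, 0, 0, 0] 3, 0, 0, 0, 0] := by
    intro p q r
    apply hA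
    · conv_lhs => rw [← h0]
      rw [← hg]
      congr 1
      rw [zornMul_eq]
      apply vec8_ext <;> simp [e0]
    · conv_lhs => rw [← h0]
      rw [← hg]
      have : zornMul ![0, p, q, r, 0, 0, 0, 0] (e0 F) = 0 := by
        rw [zornMul_eq]
        apply vec8_ext <;> simp [e0]
      rw [this, map_zero]
  have gB : ∀ p q r : F, g ![0, 0, 0, 0, p, q, r, 0] =
      ![0, 0, 0, 0, g ![0, 0, 0, 0, p, q, r, 0] 4, g ![0, 0, 0, 0, p, q, r, 0] 5,
        g ![0, 0, 0, 0, p, q, r, 0] 6, 0] := by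
    intro p q r
    apply hB
    · conv_lhs => rw [← h0]
      rw [← hg]
      congr 1
      rw [zornMul_eq]
      apply vec8_ext <;> simp [e0]
    · conv_lhs => rw [← h0]
      rw [← hg]
      have : zornMul (e0 F) ![0, 0, 0, 0, p, q, r, 0] = 0 := by
        rw [zornMul_eq]
        apply vec8_ext <;> simp [e0]
      rw [this, map_zero]
  obtain ⟨a00, a10, a20, g0⟩ : ∃ a b c, g ![0, 1, 0, 0, 0, 0, 0, 0] = ![0, a, b, c, 0, 0, 0, 0] :=
    ⟨_, _, _, gA 1 0 0⟩
  obtain ⟨a01, a11, a21, g1⟩ : ∃ a b c, g ![0, 0, 1, 0, 0, 0, 0, 0] = ![0, a, b, c, 0, 0, 0, 0] :=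
    ⟨_, _, _, gA 0 1 0⟩
  obtain ⟨a02, a12, a22, g2⟩ : ∃ a b c, g ![0, 0, 0, 1, 0, 0, 0, 0] = ![0, a, b, c, 0, 0, 0, 0] :=
    ⟨_, _, _, gA 0 0 1⟩
  let A : Matrix (Fin 3) (Fin 3) F := !![a00, a01, a02; a10, a11, a12; a20, a21, a22]
  -- the images of the `b`-vectors
  have g4 : g ![0, 0, 0, 0, 1, 0, 0, 0] = ![0, 0, 0, 0, cof A 0 0, cof A 1 0, cof A 2 0, 0] := by
    have h1 : ![0, 0, 0, 0, 1, 0, 0, 0] = zornMul (![0, 0, 1, 0, 0, 0, 0, 0] : Fin 8 → F)
        ![0, 0, 0, 1, 0, 0, 0, 0] := by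
      rw [zornMul_eq]
      apply vec8_ext <;> simp
    rw [h1, hg, g1, g2, zornMul_eq]
    apply vec8_ext <;> simp [cof, A] <;> ring
  have g5 : g ![0, 0, 0, 0, 0, 1, 0, 0] = ![0, 0, 0, 0, cof A 0 1, cof A 1 1, cof A 2 1, 0] := by
    have h1 : ![0, 0, 0, 0, 0, 1, 0, 0] = zornMul (![0, 0, 0, 1, 0, 0, 0, 0] : Fin 8 → F)
        ![0, 1, 0, 0, 0, 0, 0, 0] := by
      rw [zornMul_eq]
      apply vec8_ext <;> simp
    rw [h1, hg, g0, g2, zornMul_eq]
    apply vec8_ext <;> simp [cof, A] <;> ring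
  have g6 : g ![0, 0, 0, 0, 0, 0, 1, 0] = ![0, 0, 0, 0, cof A 0 2, cof A 1 2, cof A 2 2, 0] := by
    have h1 : ![0, 0, 0, 0, 0, 0, 1, 0] = zornMul (![0, 1, 0, 0, 0, 0, 0, 0] : Fin 8 → F)
        ![0, 0, 1, 0, 0, 0, 0, 0] := by
      rw [zornMul_eq]
      apply vec8_ext <;> simp
    rw [h1, hg, g0, g1, zornMul_eq]
    apply vec8_ext <;> simp [cof, A] <;> ring
  have hdet : A.det = 1 := by
    have h1 : e0 F = zornMul (![0, 1, 0, 0, 0, 0, 0, 0] : Fin 8 → F) ![0, 0, 0, 0, 1, 0, 0, 0] := by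
      rw [zornMul_eq]
      apply vec8_ext <;> simp [e0]
    have h2 : g (e0 F) = zornMul ![0, a00, a10, a20, 0, 0, 0, 0]
        ![0, 0, 0, 0, cof A 0 0, cof A 1 0, cof A 2 0, 0] := by
      conv_lhs => rw [h1]
      rw [hg, g0, g4]
    rw [h0, zornMul_eq] at h2
    have h3 := congrFun h2 0
    simp [e0, cof, A] at h3
    rw [Matrix.det_fin_three]
    simp [A]
    linear_combination -h3
  have g7 : g ![0, 0, 0, 0, 0, 0, 0, 1] = ![0, 0, 0, 0, 0, 0, 0, 1] := by
    have h1 : (![0, 0, 0, 0, 0, 0, 0, 1] : Fin 8 → F) = oneZ F - e0 F := by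
      apply vec8_ext <;> simp [oneZ, e0]
    rw [h1, map_sub, map_oneZ hg, h0]
  refine ⟨⟨A, hdet⟩, ?_⟩
  apply LinearEquiv.ext
  intro x
  have hx : x = x 0 • e0 F + x 1 • ![0, 1, 0, 0, 0, 0, 0, 0] + x 2 • ![0, 0, 1, 0, 0, 0, 0, 0] +
      x 3 • ![0, 0, 0, 1, 0, 0, 0, 0] + x 4 • ![0, 0, 0, 0, 1, 0, 0, 0] +
      x 5 • ![0, 0, 0, 0, 0, 1, 0, 0] + x 6 • ![0, 0, 0, 0, 0, 0, 1, 0] +
      x 7 • ![0, 0, 0, 0, 0, 0, 0, 1] := by
    apply vec8_ext <;> simp [e0]
  have h9 : g x = x 0 • e0 F + x 1 • ![0, a00, a10, a20, 0, 0, 0, 0] + x 2 • ![0, a01, a11, a21, 0, 0, 0, 0] +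
      x 3 • ![0, a02, a12, a22, 0, 0, 0, 0] + x 4 • ![0, 0, 0, 0, cof A 0 0, cof A 1 0, cof A 2 0, 0] +
      x 5 • ![0, 0, 0, 0, cof A 0 1, cof A 1 1, cof A 2 1, 0] +
      x 6 • ![0, 0, 0, 0, cof A 0 2, cof A 1 2, cof A 2 2, 0] + x 7 • ![0, 0, 0, 0, 0, 0, 0, 1] := by
    conv_lhs => rw [hx]
    simp only [map_add, map_smul]
    rw [h0, g0, g1, g2, g4, g5, g6, g7]
  rw [h9]
  change _ = act3 A (cof A) x
  apply vec8_ext
  · simp [e0, act3]
  · simp [e0, act3, A]; ring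
  · simp [e0, act3, A]; ring
  · simp [e0, act3, A]; ring
  · simp [e0, act3]; ring
  · simp [e0, act3]; ring
  · simp [e0, act3]; ring
  · simp [e0, act3]

theorem sl3E_e0 (A : Matrix.SpecialLinearGroup (Fin 3) F) : sl3E A (e0 F) = e0 F := by
  change act3 A.1 (cof A.1) (e0 F) = e0 F
  apply vec8_ext <;> simp [act3, e0]

theorem sl3E_injective : Function.Injective (sl3E (F := F)) := by
  intro A B h
  have h1 : ∀ x, act3 A.1 (cof A.1) x = act3 B.1 (cof B.1) x := fun x => LinearEquiv.congr_fun h x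
  have c0 := h1 ![0, 1, 0, 0, 0, 0, 0, 0]
  have c1 := h1 ![0, 0, 1, 0, 0, 0, 0, 0]
  have c2 := h1 ![0, 0, 0, 1, 0, 0, 0, 0]
  apply Subtype.ext
  ext i j
  fin_cases j
  · fin_cases i
    · have := congrFun c0 1; simpa [act3] using this
    · have := congrFun c0 2; simpa [act3] using this
    · have := congrFun c0 3; simpa [act3] using this
  · fin_cases i
    · have := congrFun c1 1; simpa [act3] using this
    · have := congrFun c1 2; simpa [act3] using this
    · have := congrFun c1 3; simpa [act3] using this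
  · fin_cases i
    · have := congrFun c2 1; simpa [act3] using this
    · have := congrFun c2 2; simpa [act3] using this
    · have := congrFun c2 3; simpa [act3] using this

theorem card_stabilizer : Nat.card (MulAction.stabilizer (G2L F) (e0 F)) =
    Nat.card (Matrix.SpecialLinearGroup (Fin 3) F) := by
  symm
  refine Nat.card_congr (Equiv.ofBijective (fun A => ⟨⟨sl3E A, sl3E_mem A⟩, sl3E_e0 A⟩) ⟨?_, ?_⟩)
  · intro A B h
    apply sl3E_injective
    exact congrArg (fun z : MulAction.stabilizer (G2L F) (e0 F) => (z.1.1)) h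
  · rintro ⟨⟨g, hg⟩, h0⟩
    obtain ⟨A, rfl⟩ := stab_eq hg h0
    exact ⟨A, rfl⟩

theorem orbit_eq : MulAction.orbit (G2L F) (e0 F) = Idem F := by
  apply Set.Subset.antisymm
  · rintro _ ⟨g, rfl⟩
    exact Idem_stable g.2 e0_mem_Idem
  · intro x hx
    obtain ⟨g, hg, hgx⟩ := conj_e0 hx
    refine ⟨⟨g⁻¹, inv_mem hg⟩, ?_⟩
    change g.symm (e0 F) = x
    rw [← hgx, LinearEquiv.symm_apply_apply]

end Cfsg.Agent.Lib.GTwo
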