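import Cfsg.Agent.Lib.GTwoCard
import Cfsg.Agent.Lib.MatTwo
import Cfsg.Agent.Lib.QuadNorm

/-!
# The subgroup `SL₂ ∘ SL₂ . (q - 1)` of `G₂(q)`
-/

set_option autoImplicit false

namespace Cfsg.Agent.Lib.GTwo

open Cfsg.Lie MatTwo

variable {F : Type*} [Field F]

/-- Pairs of matrices. -/
abbrev MM (F : Type*) : Type _ := Matrix (Fin 2) (Fin 2) F × Matrix (Fin 2) (Fin 2) F

/-- The octonion product on pairs of matrices. -/
def mulM (a b : MM F) : MM F :=
  (b.1 * a.1 - a.2 * b.2.adjugate, a.1 * b.2 + b.1.adjugate * a.2)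

variable (F) in
/-- The identification. -/
def EE : (Fin 8 → F) ≃ₗ[F] MM F where
  toFun x := (!![x 0, x 4; x 1, x 7], !![x 2, x 3; x 6, -x 5])
  invFun y := ![y.1 0 0, y.1 1 0, y.2 0 0, y.2 0 1, y.1 0 1, -y.2 1 1, y.2 1 0, y.1 1 1]
  map_add' x y := by
    ext i j
    · fin_cases i <;> fin_cases j <;> rfl
    · fin_cases i <;> fin_cases j <;> simp
      ring
  map_smul' c x := by
    ext i j
    · fin_cases i <;> fin_cases j <;> rfl
    · fin_cases i <;> fin_cases j <;> simp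
  left_inv x := by
    apply vec8_ext <;> simp
  right_inv y := by
    ext i j
    · fin_cases i <;> fin_cases j <;> simp
    · fin_cases i <;> fin_cases j <;> simp

theorem EE_apply (x : Fin 8 → F) : EE F x = (!![x 0, x 4; x 1, x 7], !![x 2, x 3; x 6, -x 5]) := rfl

theorem EE_mul (x y : Fin 8 → F) : EE F (zornMul x y) = mulM (EE F x) (EE F y) := by
  rw [zornMul_eq, EE_apply, EE_apply, EE_apply, mulM]
  simp only [Matrix.adjugate_fin_two_of, Matrix.mul_fin_two]
  ext i j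
  · fin_cases i <;> fin_cases j <;> simp <;> ring
  · fin_cases i <;> fin_cases j <;> simp <;> ring

theorem gl_mul_inv (g : GL (Fin 2) F) : g.1 * (g⁻¹).1 = 1 := g.mul_inv

theorem gl_inv_mul (g : GL (Fin 2) F) : (g⁻¹).1 * g.1 = 1 := g.inv_mul

/-- The action of a pair of invertible matrices. -/
def Psi : GL (Fin 2) F × GL (Fin 2) F →* (MM F ≃ₗ[F] MM F) where
  toFun p :=
    { toFun := fun y => (p.1.1 * y.1 * (p.1⁻¹).1, p.1.1 * y.2 * (p.2⁻¹).1)
      invFun := fun y => ((p.1⁻¹).1 * y.1 * p.1.1, (p.1⁻¹).1 * y.2 * p.2.1)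
      map_add' := fun x y => by
        apply Prod.ext
        · simp only [Prod.fst_add, mul_add, add_mul]
        · simp only [Prod.snd_add, mul_add, add_mul]
      map_smul' := fun c x => by
        apply Prod.ext
        · simp only [Prod.smul_fst, RingHom.id_apply, Matrix.mul_smul, Matrix.smul_mul]
        · simp only [Prod.smul_snd, RingHom.id_apply, Matrix.mul_smul, Matrix.smul_mul]
      left_inv := fun y => by
        apply Prod.ext
        · simp only
          rw [show (p.1⁻¹).1 * (p.1.1 * y.1 * (p.1⁻¹).1) * p.1.1 =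
            ((p.1⁻¹).1 * p.1.1) * y.1 * ((p.1⁻¹).1 * p.1.1) by simp only [mul_assoc], gl_inv_mul]
          simp
        · simp only
          rw [show (p.1⁻¹).1 * (p.1.1 * y.2 * (p.2⁻¹).1) * p.2.1 =
            ((p.1⁻¹).1 * p.1.1) * y.2 * ((p.2⁻¹).1 * p.2.1) by simp only [mul_assoc], gl_inv_mul, gl_inv_mul]
          simp
      right_inv := fun y => by
        apply Prod.ext
        · simp only
          rw [show p.1.1 * ((p.1⁻¹).1 * y.1 * p.1.1) * (p.1⁻¹).1 =
            (p.1.1 * (p.1⁻¹).1) * y.1 * (p.1.1 * (p.1⁻¹).1) by simp only [mul_assoc], gl_mul_inv]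
          simp
        · simp only
          rw [show p.1.1 * ((p.1⁻¹).1 * y.2 * p.2.1) * (p.2⁻¹).1 =
            (p.1.1 * (p.1⁻¹).1) * y.2 * (p.2.1 * (p.2⁻¹).1) by simp only [mul_assoc], gl_mul_inv, gl_mul_inv]
          simp }
  map_one' := by
    apply LinearEquiv.ext
    intro y
    change ((1 : Matrix (Fin 2) (Fin 2) F) * y.1 * ((1 : GL (Fin 2) F)⁻¹).1,
      (1 : Matrix (Fin 2) (Fin 2) F) * y.2 * ((1 : GL (Fin 2) F)⁻¹).1) = y
    rw [inv_one]
    change ((1 : Matrix (Fin 2) (Fin 2) F) * y.1 * 1, (1 : Matrix (Fin 2) (Fin 2) F) * y.2 * 1) = y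
    simp
  map_mul' p r := by
    apply LinearEquiv.ext
    intro y
    change ((p.1.1 * r.1.1) * y.1 * ((p.1 * r.1)⁻¹).1, (p.1.1 * r.1.1) * y.2 * ((p.2 * r.2)⁻¹).1) =
      (p.1.1 * (r.1.1 * y.1 * (r.1⁻¹).1) * (p.1⁻¹).1, p.1.1 * (r.1.1 * y.2 * (r.2⁻¹).1) * (p.2⁻¹).1)
    rw [mul_inv_rev, mul_inv_rev, Units.val_mul, Units.val_mul]
    simp only [mul_assoc]

theorem Psi_apply (p : GL (Fin 2) F × GL (Fin 2) F) (y : MM F) :
    Psi p y = (p.1.1 * y.1 * (p.1⁻¹).1, p.1.1 * y.2 * (p.2⁻¹).1) := rfl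

theorem adj_gl (g : GL (Fin 2) F) : (g.1).adjugate = g.1.det • (g⁻¹).1 := by
  have h1 : g.1 * (g.1).adjugate = g.1.det • (1 : Matrix (Fin 2) (Fin 2) F) := Matrix.mul_adjugate _
  calc (g.1).adjugate = ((g⁻¹).1 * g.1) * (g.1).adjugate := by rw [gl_inv_mul, one_mul]
    _ = (g⁻¹).1 * (g.1 * (g.1).adjugate) := by rw [mul_assoc]
    _ = g.1.det • (g⁻¹).1 := by rw [h1, Matrix.mul_smul, mul_one]

theorem det_inv_gl (g : GL (Fin 2) F) : g.1.det * (g⁻¹).1.det = 1 := by
  rw [← Matrix.det_mul, gl_mul_inv, Matrix.det_one]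

theorem Psi_mul {p : GL (Fin 2) F × GL (Fin 2) F} (hp : p.1.1.det = p.2.1.det) (x y : MM F) :
    Psi p (mulM x y) = mulM (Psi p x) (Psi p y) := by
  rw [Psi_apply, Psi_apply, Psi_apply, mulM, mulM]
  simp only
  have h1 : (p.1.1 * y.2 * (p.2⁻¹).1).adjugate = p.2.1 * (y.2.adjugate * (p.1⁻¹).1) := by
    rw [Matrix.adjugate_mul_distrib, Matrix.adjugate_mul_distrib, adj_gl, adj_gl, inv_inv, hp]
    rw [Matrix.smul_mul, Matrix.mul_smul, Matrix.mul_smul, smul_smul, mul_comm, det_inv_gl, one_smul]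
  have h2 : (p.1.1 * y.1 * (p.1⁻¹).1).adjugate = p.1.1 * (y.1.adjugate * (p.1⁻¹).1) := by
    rw [Matrix.adjugate_mul_distrib, Matrix.adjugate_mul_distrib, adj_gl, adj_gl, inv_inv]
    rw [Matrix.smul_mul, Matrix.mul_smul, Matrix.mul_smul, smul_smul, mul_comm, det_inv_gl, one_smul]
  rw [h1, h2]
  apply Prod.ext
  · simp only [mul_sub, sub_mul]
    congr 1
    · rw [show p.1.1 * y.1 * (p.1⁻¹).1 * (p.1.1 * x.1 * (p.1⁻¹).1) =
        p.1.1 * y.1 * ((p.1⁻¹).1 * p.1.1) * x.1 * (p.1⁻¹).1 by simp only [mul_assoc], gl_inv_mul, mul_one]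
      simp only [mul_assoc]
    · rw [show p.1.1 * x.2 * (p.2⁻¹).1 * (p.2.1 * (y.2.adjugate * (p.1⁻¹).1)) =
        p.1.1 * x.2 * ((p.2⁻¹).1 * p.2.1) * y.2.adjugate * (p.1⁻¹).1 by simp only [mul_assoc], gl_inv_mul, mul_one]
      simp only [mul_assoc]
  · simp only [mul_add, add_mul]
    congr 1
    · rw [show p.1.1 * x.1 * (p.1⁻¹).1 * (p.1.1 * y.2 * (p.2⁻¹).1) =
        p.1.1 * x.1 * ((p.1⁻¹).1 * p.1.1) * y.2 * (p.2⁻¹).1 by simp only [mul_assoc], gl_inv_mul, mul_one]
      simp only [mul_assoc]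
    · rw [show p.1.1 * (y.1.adjugate * (p.1⁻¹).1) * (p.1.1 * x.2 * (p.2⁻¹).1) =
        p.1.1 * y.1.adjugate * ((p.1⁻¹).1 * p.1.1) * x.2 * (p.2⁻¹).1 by simp only [mul_assoc], gl_inv_mul, mul_one]
      simp only [mul_assoc]

variable (F) in
/-- Pairs with equal determinants. -/
def kap : GL (Fin 2) F × GL (Fin 2) F →* Fˣ :=
  (Matrix.GeneralLinearGroup.det.comp (MonoidHom.fst _ _)) /
    (Matrix.GeneralLinearGroup.det.comp (MonoidHom.snd _ _))

theorem mem_kap {p : GL (Fin 2) F × GL (Fin 2) F} : p ∈ (kap F).ker ↔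
    Matrix.GeneralLinearGroup.det p.1 = Matrix.GeneralLinearGroup.det p.2 := by
  rw [MonoidHom.mem_ker]
  exact div_eq_one

/-- The homomorphism to `G₂`. -/
noncomputable def Phi : (kap F).ker →* G2L F :=
  ((QuadNorm.conjLE (EE F).symm).toMonoidHom.comp (Psi.comp (kap F).ker.subtype)).codRestrict (G2L F) (by
    intro p x y
    have hp : (p : GL (Fin 2) F × GL (Fin 2) F).1.1.det = (p : GL (Fin 2) F × GL (Fin 2) F).2.1.det :=
      congrArg Units.val (mem_kap.mp p.2)
    change (EE F).symm (Psi p.1 (EE F (zornMul x y))) =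
      zornMul ((EE F).symm (Psi p.1 (EE F x))) ((EE F).symm (Psi p.1 (EE F y)))
    rw [EE_mul, Psi_mul hp]
    apply (EE F).injective
    rw [EE_mul, LinearEquiv.apply_symm_apply, LinearEquiv.apply_symm_apply, LinearEquiv.apply_symm_apply])

theorem Phi_apply (p : (kap F).ker) (x : Fin 8 → F) : ((Phi p : G2L F) : (Fin 8 → F) ≃ₗ[F] (Fin 8 → F)) x =
    (EE F).symm (Psi p.1 (EE F x)) := rfl

theorem mem_ker_Phi {p : (kap F).ker} : p ∈ (Phi (F := F)).ker ↔
    ∃ c : Fˣ, (p : GL (Fin 2) F × GL (Fin 2) F) = (dgl (c, c), dgl (c, c)) := by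
  constructor
  · intro h
    have h1 : ∀ y : MM F, Psi p.1 y = y := by
      intro y
      have h2 : ((Phi p : G2L F) : (Fin 8 → F) ≃ₗ[F] (Fin 8 → F)) ((EE F).symm y) = (EE F).symm y := by
        rw [MonoidHom.mem_ker] at h
        rw [h]
        rfl
      rw [Phi_apply, LinearEquiv.apply_symm_apply] at h2
      exact (EE F).symm.injective h2
    obtain ⟨⟨g, g'⟩, hp⟩ := p
    simp only [Psi_apply] at h1
    have hgg : g = g' := by
      have h2 := congrArg Prod.snd (h1 (0, 1))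
      simp only [mul_one] at h2
      have h3 : g * g'⁻¹ = 1 := Units.ext h2
      exact mul_inv_eq_one.mp h3
    subst hgg
    have hc : ∀ Z : Matrix (Fin 2) (Fin 2) F, g.1 * Z = Z * g.1 := by
      intro Z
      have h2 := congrArg Prod.fst (h1 (Z, 0))
      simp only at h2
      calc g.1 * Z = (g.1 * Z * (g⁻¹).1) * g.1 := by
            rw [mul_assoc, gl_inv_mul, mul_one]
        _ = Z * g.1 := by rw [h2]
    have k1 := hc !![0, 1; 0, 0]
    have k2 := hc !![0, 0; 1, 0]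
    have m1 : g.1 1 0 = 0 := by
      have := congrFun (congrFun k1 0) 0
      simpa [Matrix.mul_apply, Fin.sum_univ_two] using this.symm
    have m2 : g.1 0 1 = 0 := by
      have := congrFun (congrFun k2 0) 0
      simpa [Matrix.mul_apply, Fin.sum_univ_two] using this
    have m3 : g.1 0 0 = g.1 1 1 := by
      have := congrFun (congrFun k1 0) 1
      simpa [Matrix.mul_apply, Fin.sum_univ_two] using this
    have hdet : g.1.det ≠ 0 := by
      intro h0
      have := det_inv_gl g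
      rw [h0, zero_mul] at this
      exact zero_ne_one this
    have hne : g.1 0 0 ≠ 0 := by
      intro h0
      apply hdet
      rw [Matrix.det_fin_two, h0, m2]
      ring
    refine ⟨Units.mk0 (g.1 0 0) hne, ?_⟩
    have hg : g = dgl (Units.mk0 (g.1 0 0) hne, Units.mk0 (g.1 0 0) hne) := by
      apply Units.ext
      rw [dgl_val]
      ext i j
      fin_cases i <;> fin_cases j
      · rfl
      · exact m2
      · exact m1
      · exact m3.symm
    change (g, g) = _
    rw [← hg]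
  · rintro ⟨c, hc⟩
    rw [MonoidHom.mem_ker]
    apply Subtype.ext
    apply LinearEquiv.ext
    intro x
    rw [Phi_apply, hc, Psi_apply]
    change (EE F).symm _ = x
    rw [LinearEquiv.symm_apply_eq]
    have hs : ∀ Z : Matrix (Fin 2) (Fin 2) F, (dgl (c, c)).1 * Z * ((dgl (c, c))⁻¹).1 = Z := by
      intro Z
      have : (dgl (c, c)).1 * Z = Z * (dgl (c, c)).1 := by
        rw [dgl_val]
        ext i j
        fin_cases i <;> fin_cases j <;> simp [Matrix.mul_apply, Fin.sum_univ_two, mul_comm]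
      rw [this, mul_assoc, gl_mul_inv, mul_one]
    apply Prod.ext
    · exact hs _
    · exact hs _

end Cfsg.Agent.Lib.GTwo
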