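import Mathlib

/-!
# 2-parts of `q ^ m ± 1`
-/

set_option autoImplicit false

namespace Cfsg.Agent.Lib.SylAb

open Nat

theorem v2_even {q : ℕ} (hq : Odd q) (h1 : 1 < q) {i : ℕ} (hi : 0 < i) :
    (q ^ (2 * i) - 1).factorization 2 = (q ^ 2 - 1).factorization 2 + i.factorization 2 := by
  have h2 : ¬ 2 ∣ q := by
    intro h
    exact (Nat.not_even_iff_odd.mpr hq) (even_iff_two_dvd.mpr h)
  have h3 : 2 ∣ q - 1 := by
    obtain ⟨t, rfl⟩ := hq
    exact ⟨t, by omega⟩
  have h4 := padicValNat.pow_two_sub_pow h1 h3 h2 (n := 2 * i) (by omega) (even_two_mul i)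
  have h5 := padicValNat.pow_two_sub_pow h1 h3 h2 (n := 2) (by omega) even_two
  rw [one_pow] at h4 h5
  rw [padicValNat.mul (by norm_num) hi.ne'] at h4
  have h6 : padicValNat 2 2 = 1 := padicValNat_self
  rw [h6] at h4 h5
  simp only [Nat.factorization_def _ Nat.prime_two]
  omega

theorem v2_prod {q : ℕ} (hq : Odd q) (h1 : 1 < q) (m : ℕ) :
    (∏ i ∈ Finset.range m, (q ^ (2 * (i + 1)) - 1)).factorization 2 =
      (q ^ 2 - 1).factorization 2 * m + (m !).factorization 2 := by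
  induction m with
  | zero => simp
  | succ m ih =>
    have h2 : ∀ i, q ^ (2 * (i + 1)) - 1 ≠ 0 := by
      intro i
      have : 1 < q ^ (2 * (i + 1)) := Nat.one_lt_pow (by omega) h1
      omega
    rw [Finset.prod_range_succ, Nat.factorization_mul (Finset.prod_ne_zero_iff.mpr fun i _ => h2 i)
      (h2 m), Finsupp.add_apply, ih, v2_even hq h1 (Nat.succ_pos m), Nat.factorial_succ,
      Nat.factorization_mul (Nat.succ_ne_zero m) (Nat.factorial_ne_zero m), Finsupp.add_apply]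
    ring

theorem fact_one_of_mod {n : ℕ} (h : n % 4 = 2) : n.factorization 2 = 1 := by
  have h1 : n = 2 * (n / 2) := by omega
  have h2 : ¬ 2 ∣ n / 2 := by omega
  have h3 : n / 2 ≠ 0 := by omega
  rw [h1, Nat.factorization_mul (by norm_num) h3, Finsupp.add_apply,
    Nat.factorization_eq_zero_of_not_dvd h2, Nat.Prime.factorization_self Nat.prime_two]

theorem v2_split {q : ℕ} (hq : Odd q) (h1 : 1 < q) {m : ℕ} (hm : 0 < m) :
    (q ^ m - 1).factorization 2 + (q ^ m + 1).factorization 2 =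
      (q ^ 2 - 1).factorization 2 + m.factorization 2 := by
  rw [← v2_even hq h1 hm]
  have h2 : 1 < q ^ m := Nat.one_lt_pow hm.ne' h1
  have h3 : q ^ (2 * m) - 1 = (q ^ m - 1) * (q ^ m + 1) := by
    rw [mul_comm 2 m, pow_mul]
    obtain ⟨t, ht⟩ : ∃ t, q ^ m = t + 1 := ⟨q ^ m - 1, by omega⟩
    rw [ht]
    simp only [Nat.add_sub_cancel]
    have : (t + 1) ^ 2 = t * (t + 1 + 1) + 1 := by ring
    rw [this, Nat.add_sub_cancel]
  rw [h3, Nat.factorization_mul (by omega) (by omega), Finsupp.add_apply]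

theorem v2_one {q : ℕ} (hq : Odd q) (h1 : 1 < q) {m : ℕ} (hm : 0 < m) (h : q ^ m % 4 = 1) :
    (q ^ m + 1).factorization 2 = 1 ∧
      (q ^ m - 1).factorization 2 + 1 = (q ^ 2 - 1).factorization 2 + m.factorization 2 := by
  have h2 : (q ^ m + 1).factorization 2 = 1 := fact_one_of_mod (by omega)
  refine ⟨h2, ?_⟩
  rw [← v2_split hq h1 hm, h2]

theorem v2_three {q : ℕ} (hq : Odd q) (h1 : 1 < q) {m : ℕ} (hm : 0 < m) (h : q ^ m % 4 = 3) :
    (q ^ m - 1).factorization 2 = 1 ∧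
      (q ^ m + 1).factorization 2 + 1 = (q ^ 2 - 1).factorization 2 + m.factorization 2 := by
  have h2 : (q ^ m - 1).factorization 2 = 1 := fact_one_of_mod (by omega)
  refine ⟨h2, ?_⟩
  rw [← v2_split hq h1 hm, h2, add_comm]

theorem v2_pow_odd {q : ℕ} (hq : Odd q) (n : ℕ) : (q ^ n).factorization 2 = 0 := by
  apply Nat.factorization_eq_zero_of_not_dvd
  intro h
  have := Nat.prime_two.dvd_of_dvd_pow h
  exact (Nat.not_even_iff_odd.mpr hq) (even_iff_two_dvd.mpr this)

theorem v2_mul3 {a b c d : ℕ} (ha : a ≠ 0) (hb : b ≠ 0) (hc : c ≠ 0) (hd : d ≠ 0) :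
    (a * b * c * d).factorization 2 = a.factorization 2 + b.factorization 2 + c.factorization 2 +
      d.factorization 2 := by
  rw [Nat.factorization_mul (mul_ne_zero (mul_ne_zero ha hb) hc) hd,
    Nat.factorization_mul (mul_ne_zero ha hb) hc, Nat.factorization_mul ha hb]
  rfl

end Cfsg.Agent.Lib.SylAb
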