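import Cfsg.Agent.Lib.SylAbWr2

/-!
# Sylow subgroups of symmetric and alternating groups have elementary abelian abelianization
-/

set_option autoImplicit false

open scoped commutatorElement

namespace Cfsg.Agent.Lib.SylAb

open Equiv

section

variable (p k r : ℕ)

/-- The base group: translations in the blocks. -/
def symBase : (Fin k → Multiplicative (ZMod p)) →* Perm ((Fin k × ZMod p) ⊕ Fin r) where
  toFun f := Equiv.sumCongr (Equiv.prodCongrRight fun i => Equiv.addLeft (Multiplicative.toAdd (f i)))
    (Equiv.refl _)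
  map_one' := by
    ext x
    rcases x with ⟨i, a⟩ | x
    · simp
    · rfl
  map_mul' f g := by
    apply Equiv.ext
    rintro (⟨i, a⟩ | x)
    · simp
    · rfl

theorem symBase_inl (f : Fin k → Multiplicative (ZMod p)) (i : Fin k) (a : ZMod p) :
    symBase p k r f (Sum.inl (i, a)) = Sum.inl (i, Multiplicative.toAdd (f i) + a) := rfl

theorem symBase_inr (f : Fin k → Multiplicative (ZMod p)) (x : Fin r) :
    symBase p k r f (Sum.inr x) = Sum.inr x := rfl

/-- The permutations of the blocks. -/
def symTop : Perm (Fin k) →* Perm ((Fin k × ZMod p) ⊕ Fin r) where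
  toFun π := Equiv.sumCongr (Equiv.prodCongrLeft fun _ => π) (Equiv.refl _)
  map_one' := by
    apply Equiv.ext
    rintro (⟨i, a⟩ | x) <;> rfl
  map_mul' f g := by
    apply Equiv.ext
    rintro (⟨i, a⟩ | x) <;> rfl

theorem symTop_inl (π : Perm (Fin k)) (i : Fin k) (a : ZMod p) :
    symTop p k r π (Sum.inl (i, a)) = Sum.inl (π i, a) := rfl

theorem symTop_inr (π : Perm (Fin k)) (x : Fin r) :
    symTop p k r π (Sum.inr x) = Sum.inr x := rfl

/-- `C_p ≀ S_k` inside `S_{pk+r}`. -/
def symData : WrData (Perm ((Fin k × ZMod p) ⊕ Fin r)) (Multiplicative (ZMod p)) PUnit.{1} k where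
  base := symBase p k r
  s := symTop p k r
  e := 1
  conj π f := by
    rw [mul_inv_eq_iff_eq_mul]
    apply Equiv.ext
    rintro (⟨i, a⟩ | x)
    · rw [Perm.mul_apply, Perm.mul_apply, symBase_inl, symTop_inl, symTop_inl, symBase_inl]
      simp
    · rfl
  comm_base f x := Commute.one_right _
  comm_s f x := Commute.one_right _
  inj f π x h := by
    rw [MonoidHom.one_apply, mul_one] at h
    have h1 : ∀ i a, (π i, Multiplicative.toAdd (f (π i)) + a) = (i, a) := by
      intro i a
      have h2 := congrArg (fun g : Perm ((Fin k × ZMod p) ⊕ Fin r) => g (Sum.inl (i, a))) h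
      simp only [Perm.mul_apply, symTop_inl, symBase_inl, Perm.one_apply] at h2
      exact Sum.inl_injective h2
    have hπ : π = 1 := by
      ext i
      have := congrArg Prod.fst (h1 i 0)
      simp only at this
      rw [this]
      rfl
    refine ⟨?_, hπ, rfl⟩
    funext i
    have := congrArg Prod.snd (h1 i 0)
    simp only [add_zero, hπ, Perm.one_apply] at this
    exact toAdd_eq_zero.mp this

end

theorem fact_val {p : ℕ} [hp : Fact p.Prime] (k r : ℕ) (hr : r < p) :
    (Nat.factorial (k * p + r)).factorization p = 1 * k + (Nat.factorial k).factorization p + 0 := by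
  rw [Nat.factorization_def _ hp.out, Nat.factorization_def _ hp.out, mul_comm k p,
    padicValNat_factorial_mul_add k hr, padicValNat_factorial_mul]
  ring

theorem card_sym (p k r : ℕ) [NeZero p] :
    Nat.card ((Fin k × ZMod p) ⊕ Fin r) = k * p + r := by
  rw [Nat.card_sum, Nat.card_prod, Nat.card_fin, Nat.card_fin, Nat.card_zmod]

section

variable {p : ℕ} [hp : Fact p.Prime] (k r : ℕ) (S : Sylow p (Perm (Fin k)))

include hp

theorem symT_isPGroup : IsPGroup p ((symData p k r).T (S : Subgroup (Perm (Fin k)))) := by
  obtain ⟨b, hb⟩ := IsPGroup.iff_card.mp S.isPGroup'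
  exact WrData.isPGroup_T (a := 1) (c := 0) (by rw [Nat.card_congr Multiplicative.toAdd, Nat.card_zmod, pow_one])
    hb (by simp)

theorem symT_index (hr : r < p) : ¬ p ∣ ((symData p k r).T (S : Subgroup (Perm (Fin k)))).index := by
  apply WrData.not_dvd_index_T (a := 1) (c := 0) (b := (Nat.factorial k).factorization p)
  · rw [Nat.card_congr Multiplicative.toAdd, Nat.card_zmod, pow_one]
  · rw [S.card_eq_multiplicity, Nat.card_perm, Nat.card_fin]
  · simp
  · rw [Nat.card_perm, card_sym]
    exact fact_val k r hr

theorem symT_powDer (hS : PowDer p (S : Subgroup (Perm (Fin k)))) :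
    PowDer p ((symData p k r).T (S : Subgroup (Perm (Fin k)))) := by
  apply WrData.powDer_T _ _ hS
  · apply pd_of_comm
    intro x
    have h := pow_card_eq_one' (x := x)
    rwa [Nat.card_congr Multiplicative.toAdd, Nat.card_zmod] at h
  · intro x
    rw [Subsingleton.elim (x ^ p) 1]
    exact one_mem _

end

/-- Sylow subgroups of symmetric groups. -/
theorem sylPD_perm {p : ℕ} [hp : Fact p.Prime] (n : ℕ) : SylPD p (Perm (Fin n)) := by
  induction n using Nat.strong_induction_on with
  | _ n ih =>
    have hn : n = (n / p) * p + n % p := by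
      rw [mul_comm]; exact (Nat.div_add_mod n p).symm
    have hr : n % p < p := Nat.mod_lt _ hp.out.pos
    obtain ⟨S⟩ : Nonempty (Sylow p (Perm (Fin (n / p)))) := inferInstance
    have hS : PowDer p (S : Subgroup (Perm (Fin (n / p)))) := by
      rcases Nat.eq_zero_or_pos n with h0 | h0
      · subst h0
        intro x _
        have : x ^ p = 1 := by
          ext i
          rw [Nat.zero_div] at i
          exact i.elim0
        rw [this]
        exact one_mem _
      · exact sylPD_apply (ih _ (Nat.div_lt_self h0 hp.out.one_lt)) S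
    have h1 : SylPD p (Perm ((Fin (n / p) × ZMod p) ⊕ Fin (n % p))) :=
      sylPD_of (symT_isPGroup _ _ S) (symT_index _ _ S hr) (symT_powDer _ _ S hS)
    have e : (Fin (n / p) × ZMod p) ⊕ Fin (n % p) ≃ Fin n := by
      apply Fintype.equivOfCardEq
      rw [← Nat.card_eq_fintype_card, ← Nat.card_eq_fintype_card, card_sym, Nat.card_fin]
      exact hn.symm
    exact sylPD_of_equiv (Equiv.permCongrHom e) h1

theorem sign_symTop (k r : ℕ) (π : Perm (Fin k)) : Perm.sign (symTop 2 k r π) = 1 := by
  change Perm.sign (Equiv.sumCongr (Equiv.prodCongrLeft fun _ => π) (Equiv.refl _)) = 1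
  rw [show (Equiv.refl (Fin r)) = (1 : Perm (Fin r)) from rfl, Perm.sign_sumCongr,
    Perm.sign_prodCongrLeft, Perm.sign_one, mul_one]
  simp only [Finset.prod_const, Finset.card_univ, ZMod.card]
  exact Int.units_sq _

/-- The sign of a translation. -/
def transSign : Multiplicative (ZMod 2) →* ℤˣ :=
  Perm.sign.comp
    { toFun := fun x => Equiv.addLeft (Multiplicative.toAdd x)
      map_one' := by ext; simp
      map_mul' := fun x y => by ext; simp }

theorem sign_symBase (k r : ℕ) (f : Fin k → Multiplicative (ZMod 2)) :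
    Perm.sign (symBase 2 k r f) = ∏ i, transSign (f i) := by
  change Perm.sign (Equiv.sumCongr
    (Equiv.prodCongrRight fun i => Equiv.addLeft (Multiplicative.toAdd (f i))) (Equiv.refl _)) = _
  rw [show (Equiv.refl (Fin r)) = (1 : Perm (Fin r)) from rfl, Perm.sign_sumCongr,
    Perm.sign_prodCongrRight, Perm.sign_one, mul_one]
  rfl

theorem ker_transSign : transSign.ker = ⊥ := by
  rw [eq_bot_iff]
  intro x hx
  rw [MonoidHom.mem_ker] at hx
  rw [Subgroup.mem_bot]
  revert hx
  revert x
  decide

theorem two_cases : ∀ x : Multiplicative (ZMod 2), x = 1 ∨ x = Multiplicative.ofAdd 1 := by decide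

theorem two_sq : (Multiplicative.ofAdd 1 : Multiplicative (ZMod 2)) ^ 2 = 1 := by decide

/-- Sylow subgroups of alternating groups. -/
theorem sylPD_alt {p : ℕ} [hp : Fact p.Prime] (n : ℕ) : SylPD p (alternatingGroup (Fin n)) := by
  rcases hp.out.eq_two_or_odd' with h2 | hodd
  · subst h2
    rcases Nat.lt_or_ge n 2 with hn | hn
    · intro P x
      have : Subsingleton (Perm (Fin n)) := by
        have : Subsingleton (Fin n) := by
          rw [Fin.subsingleton_iff_le_one]
          omega
        exact ⟨fun a b => Equiv.ext fun i => Subsingleton.elim _ _⟩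
      have : x ^ 2 = 1 := Subsingleton.elim _ _
      rw [this]
      exact one_mem _
    · have hn' : n = (n / 2) * 2 + n % 2 := by
        rw [mul_comm]; exact (Nat.div_add_mod n 2).symm
      have hr : n % 2 < 2 := Nat.mod_lt _ (by norm_num)
      obtain ⟨S⟩ : Nonempty (Sylow 2 (Perm (Fin (n / 2)))) := inferInstance
      have hS := sylPD_apply (sylPD_perm (p := 2) (n / 2)) S
      have h1 : SylPD 2 (Perm.sign (α := (Fin (n / 2) × ZMod 2) ⊕ Fin (n % 2))).ker := by
        refine sylPD_normal inferInstance (symT_isPGroup _ _ S) (symT_index _ _ S hr) ?_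
        refine WrData.powDer_ker _ transSign (sign_symBase _ _) (sign_symTop _ _) ?_
          (z := Multiplicative.ofAdd 1) ?_ hS (by omega) (Or.inl two_sq)
        · rw [ker_transSign]
          intro x hx
          rw [Subgroup.mem_bot] at hx
          rw [hx, one_pow]
          exact one_mem _
        · intro x
          rw [ker_transSign]
          rcases two_cases x with rfl | rfl
          · exact ⟨0, by simp⟩
          · exact ⟨1, by simp⟩
      have e : (Fin (n / 2) × ZMod 2) ⊕ Fin (n % 2) ≃ Fin n := by
        apply Fintype.equivOfCardEq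
        rw [← Nat.card_eq_fintype_card, ← Nat.card_eq_fintype_card, card_sym, Nat.card_fin]
        exact hn'.symm
      exact sylPD_of_equiv (Equiv.altCongrHom e) h1
  · obtain ⟨P⟩ : Nonempty (Sylow p (Perm (Fin n))) := inferInstance
    have hle : (P : Subgroup (Perm (Fin n))) ≤ alternatingGroup (Fin n) := by
      intro x hx
      rw [Equiv.Perm.mem_alternatingGroup]
      obtain ⟨m, hm⟩ := P.isPGroup' ⟨x, hx⟩
      have hm' : x ^ p ^ m = 1 := congrArg Subtype.val hm
      have h3 : Perm.sign x ^ (p ^ m) = 1 := by rw [← map_pow, hm', map_one]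
      rcases Int.units_eq_one_or (Perm.sign x) with h4 | h4
      · exact h4
      · rw [h4, (hodd.pow).neg_one_pow] at h3
        exact absurd h3 (by decide)
    refine sylPD_normal inferInstance P.isPGroup' P.not_dvd_index ?_
    rw [inf_eq_left.mpr hle]
    exact sylPD_apply (sylPD_perm n) P

end Cfsg.Agent.Lib.SylAb
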