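import Cfsg.Agent.Lib.SylAbLin
import Cfsg.Agent.Lib.SylAbNum
import Cfsg.Agent.Lib.SylAbSym
import Cfsg.Agent.Lib.ClIso
import Cfsg.Agent.Lib.ClSL2
import Cfsg.Agent.Lib.QuadNorm
import Cfsg.Agent.S0261

/-!
# Sylow 2-subgroups of `SL₂` and `GL₂` in odd characteristic
-/

set_option autoImplicit false

open scoped commutatorElement

namespace Cfsg.Agent.Lib.SylAb

theorem v2_pow_sub_one {q : ℕ} (hq : Odd q) (h1 : 1 < q) {n : ℕ} (hn : Odd n) :
    (q ^ n - 1).factorization 2 = (q - 1).factorization 2 := by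
  have hn0 : 0 < n := hn.pos
  have hnf : n.factorization 2 = 0 := by
    apply Nat.factorization_eq_zero_of_not_dvd
    have := Nat.odd_iff.mp hn
    omega
  have h4 : q % 4 = 1 ∨ q % 4 = 3 := by
    have := Nat.odd_iff.mp hq
    omega
  have hsq : q ^ 2 % 4 = 1 := by
    rw [Nat.pow_mod]
    rcases h4 with h | h <;> rw [h]
  have hmod : q ^ n % 4 = q % 4 := by
    obtain ⟨t, rfl⟩ := hn
    rw [pow_succ, pow_mul, Nat.mul_mod, Nat.pow_mod, hsq, one_pow]
    simp
  have h5 := v2_split hq h1 one_pos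
  have h10 : (1 : ℕ).factorization 2 = 0 := by simp
  rw [pow_one, h10] at h5
  rcases h4 with h | h
  · have h6 := v2_one hq h1 hn0 (by rw [hmod, h])
    have h7 : (q + 1).factorization 2 = 1 := fact_one_of_mod (by omega)
    omega
  · have h6 := v2_three hq h1 hn0 (by rw [hmod, h])
    rw [h6.1]
    exact (fact_one_of_mod (by omega)).symm

theorem v2_gl {q : ℕ} (hq : Odd q) (h1 : 1 < q) (m : ℕ) :
    (∏ i ∈ Finset.range (2 * m), (q ^ (i + 1) - 1)).factorization 2 =
      ((q - 1).factorization 2 + (q ^ 2 - 1).factorization 2) * m + (m.factorial).factorization 2 := by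
  induction m with
  | zero => simp
  | succ m ih =>
    have h2 : ∀ i, q ^ (i + 1) - 1 ≠ 0 := by
      intro i
      have : 1 < q ^ (i + 1) := Nat.one_lt_pow (by omega) h1
      omega
    have h3 : ∏ i ∈ Finset.range (2 * m), (q ^ (i + 1) - 1) ≠ 0 :=
      Finset.prod_ne_zero_iff.mpr fun i _ => h2 i
    rw [show 2 * (m + 1) = 2 * m + 1 + 1 by ring, Finset.prod_range_succ, Finset.prod_range_succ,
      Nat.factorization_mul (mul_ne_zero h3 (h2 _)) (h2 _), Nat.factorization_mul h3 (h2 _),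
      Finsupp.add_apply, Finsupp.add_apply, ih, v2_pow_sub_one hq h1 (odd_two_mul_add_one m),
      show 2 * m + 1 + 1 = 2 * (m + 1) by ring, v2_even hq h1 (Nat.succ_pos m), Nat.factorial_succ,
      Nat.factorization_mul (show m + 1 ≠ 0 from Nat.succ_ne_zero m) (Nat.factorial_ne_zero m), Finsupp.add_apply]
    ring

theorem pd_quaternion {k : ℕ} (hk : 1 ≤ k) : PD 2 (QuaternionGroup (2 ^ k)) := by
  have h1 : ∀ i : ZMod (2 * 2 ^ k), QuaternionGroup.a (n := 2 ^ k) (2 * i) ∈ commutator (QuaternionGroup (2 ^ k)) := by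
    intro i
    have h2 : QuaternionGroup.a (n := 2 ^ k) (2 * i) = ⁅QuaternionGroup.a (n := 2 ^ k) i, QuaternionGroup.xa 0⁆ := by
      rw [commutatorElement_def, eq_mul_inv_iff_mul_eq, eq_mul_inv_iff_mul_eq]
      rw [QuaternionGroup.a_mul_xa, QuaternionGroup.xa_mul_a, QuaternionGroup.a_mul_xa]
      congr 1
      ring
    rw [h2, commutator_def]
    exact Subgroup.commutator_mem_commutator (Subgroup.mem_top _) (Subgroup.mem_top _)
  intro x
  rcases x with i | i
  · rw [pow_two, QuaternionGroup.a_mul_a, ← two_mul]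
    exact h1 i
  · rw [pow_two, QuaternionGroup.xa_mul_xa]
    obtain ⟨t, rfl⟩ : ∃ t, k = t + 1 := ⟨k - 1, by omega⟩
    have h3 : ((2 ^ (t + 1) : ℕ) : ZMod (2 * 2 ^ (t + 1))) + i - i = 2 * ((2 ^ t : ℕ) : ZMod (2 * 2 ^ (t + 1))) := by
      push_cast
      ring
    rw [h3]
    exact h1 _

variable {F : Type*} [Field F] [Fintype F]

theorem sylPD_SL2 (hF : Odd (Fintype.card F)) : SylPD 2 (Matrix.SpecialLinearGroup (Fin 2) F) := by
  intro P
  obtain ⟨k, hk, ⟨e⟩⟩ := Cfsg.Agent.S0261.result hF P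
  exact pd_of_equiv e.symm (pd_quaternion hk)

/-- `GL(V)` for a space of dimension `n`. -/
noncomputable def glMul {V : Type*} [AddCommGroup V] [Module F V] [Module.Finite F V] {n : ℕ}
    (hn : Module.finrank F V = n) : GL (Fin n) F ≃* (V ≃ₗ[F] V) :=
  (ClIso.glEquiv (Fin n) F).trans (QuadNorm.conjLE (Module.finBasisOfFinrankEq F V hn).equivFun.symm)

/-- `SL(V)` for a space of dimension `n`. -/
noncomputable def slMul {V : Type*} [AddCommGroup V] [Module F V] [Module.Finite F V] {n : ℕ}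
    (hn : Module.finrank F V = n) : Matrix.SpecialLinearGroup (Fin n) F ≃*
      (LinearEquiv.det : (V ≃ₗ[F] V) →* Fˣ).ker :=
  (Matrix.SpecialLinearGroup.toLin_equiv (Module.finBasisOfFinrankEq F V hn)).trans
    { toFun := fun x => ⟨x.1, x.2⟩
      invFun := fun x => ⟨x.1, x.2⟩
      left_inv := fun _ => rfl
      right_inv := fun _ => rfl
      map_mul' := fun _ _ => rfl }

theorem finrank_plane (F : Type*) [Field F] : Module.finrank F (F × F) = 2 := by
  rw [Module.finrank_prod, Module.finrank_self]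

theorem card_gl_plane : Nat.card ((F × F) ≃ₗ[F] (F × F)) =
    (Fintype.card F) * ((Fintype.card F - 1) * ((Fintype.card F) ^ 2 - 1)) := by
  rw [← Nat.card_congr (glMul (finrank_plane F)).toEquiv, ClSL2.card_GL2 rfl]

theorem fact_gl_plane (hF : Odd (Fintype.card F)) : (Nat.card ((F × F) ≃ₗ[F] (F × F))).factorization 2 =
    (Fintype.card F - 1).factorization 2 + ((Fintype.card F) ^ 2 - 1).factorization 2 := by
  have h1 : 1 < Fintype.card F := Fintype.one_lt_card
  have h2 : 1 < (Fintype.card F) ^ 2 := Nat.one_lt_pow two_ne_zero h1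
  rw [card_gl_plane, Nat.factorization_mul (by omega) (mul_ne_zero (by omega) (by omega)),
    Nat.factorization_mul (by omega) (by omega), Finsupp.add_apply, Finsupp.add_apply]
  have h3 := v2_pow_odd hF 1
  rw [pow_one] at h3
  rw [h3, zero_add]

/-- The determinant on a subgroup. -/
noncomputable def detOn (P : Subgroup ((F × F) ≃ₗ[F] (F × F))) : P →* Fˣ := LinearEquiv.det.comp P.subtype

theorem detOn_apply (P : Subgroup ((F × F) ≃ₗ[F] (F × F))) (x : P) :
    detOn P x = LinearEquiv.det (x : (F × F) ≃ₗ[F] (F × F)) := rfl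

instance finite_linEquiv {F V : Type*} [Field F] [AddCommGroup V] [Module F V] [Finite V] :
    Finite (V ≃ₗ[F] V) := DFunLike.finite _

theorem powDer_ker_det (hF : Odd (Fintype.card F)) (P : Sylow 2 ((F × F) ≃ₗ[F] (F × F))) :
    PowDer 2 (detOn (P : Subgroup ((F × F) ≃ₗ[F] (F × F)))).ker := by
  rw [← pd_iff_powDer]
  let N := (LinearEquiv.det : ((F × F) ≃ₗ[F] (F × F)) →* Fˣ).ker
  have hN : SylPD 2 N := sylPD_of_equiv (slMul (finrank_plane F)) (sylPD_SL2 hF)
  have hp : IsPGroup 2 ((P : Subgroup ((F × F) ≃ₗ[F] (F × F))).subgroupOf N) :=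
    P.isPGroup'.comap_of_injective N.subtype (Subgroup.subtype_injective _)
  have hi : ¬ 2 ∣ ((P : Subgroup ((F × F) ≃ₗ[F] (F × F))).subgroupOf N).index := by
    intro h
    have h2 : (P : Subgroup ((F × F) ≃ₗ[F] (F × F))).relIndex N ∣
        (P : Subgroup ((F × F) ≃ₗ[F] (F × F))).index := relIndex_dvd_index
    exact P.not_dvd_index (h.trans h2)
  have h3 : PD 2 ((P : Subgroup ((F × F) ≃ₗ[F] (F × F))).subgroupOf N) := hN (hp.toSylow hi)
  let e : ((P : Subgroup ((F × F) ≃ₗ[F] (F × F))).subgroupOf N) ≃*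
      (detOn (P : Subgroup ((F × F) ≃ₗ[F] (F × F)))).ker :=
    { toFun := fun x => ⟨⟨x.1.1, x.2⟩, x.1.2⟩
      invFun := fun x => ⟨⟨x.1.1, x.2⟩, x.1.2⟩
      left_inv := fun _ => rfl
      right_inv := fun _ => rfl
      map_mul' := fun _ _ => rfl }
  exact pd_of_equiv e h3

theorem exists_gen_det (P : Subgroup ((F × F) ≃ₗ[F] (F × F))) :
    ∃ z : P, ∀ x : P, ∃ n : ℤ, x * (z ^ n)⁻¹ ∈ (detOn P).ker := by
  obtain ⟨⟨_, ⟨z, rfl⟩⟩, hg⟩ := (inferInstance : IsCyclic (detOn P).range)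
  refine ⟨z, fun x => ?_⟩
  obtain ⟨n, hn⟩ := hg ⟨detOn P x, x, rfl⟩
  refine ⟨n, ?_⟩
  have hn' : (detOn P z) ^ n = detOn P x := congrArg Subtype.val hn
  rw [MonoidHom.mem_ker, map_mul, map_inv, map_zpow, hn', mul_inv_cancel]

/-- The reflection `(x, y) ↦ (-x, y)`. -/
def negFst (F : Type*) [Field F] : (F × F) ≃ₗ[F] (F × F) :=
  LinearEquiv.prodCongr (LinearEquiv.neg F) (LinearEquiv.refl F F)

theorem negFst_sq : (negFst F) ^ 2 = 1 := by
  apply LinearEquiv.ext
  rintro ⟨x, y⟩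
  rw [pow_two]
  change (- -x, y) = (x, y)
  rw [neg_neg]

theorem det_negFst : LinearEquiv.det (negFst F) = -1 := by
  apply Units.ext
  rw [LinearEquiv.coe_det]
  have : ((negFst F : (F × F) ≃ₗ[F] (F × F)) : (F × F) →ₗ[F] (F × F)) =
      (-LinearMap.id).prodMap LinearMap.id := rfl
  rw [this, LinearMap.det_prodMap]
  simp

/-- For `q ≡ 3 mod 4` a Sylow subgroup of `GL₂` splits over `SL₂`. -/
theorem exists_sylow_three (h3 : Fintype.card F % 4 = 3) :
    ∃ P : Sylow 2 ((F × F) ≃ₗ[F] (F × F)), ∃ z : (P : Subgroup ((F × F) ≃ₗ[F] (F × F))), z ^ 2 = 1 ∧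
      ∀ x : (P : Subgroup ((F × F) ≃ₗ[F] (F × F))), ∃ n : ℤ,
        x * (z ^ n)⁻¹ ∈ (detOn (P : Subgroup ((F × F) ≃ₗ[F] (F × F)))).ker := by
  have hz2 : (negFst F) ^ 2 = 1 := negFst_sq
  have hp : IsPGroup 2 (Subgroup.zpowers (negFst F)) := by
    rintro ⟨x, hx⟩
    obtain ⟨n, rfl⟩ := hx
    refine ⟨1, Subtype.ext ?_⟩
    change ((negFst F) ^ n) ^ (2 ^ 1) = 1
    rw [pow_one, ← zpow_natCast, ← zpow_mul, mul_comm, zpow_mul, zpow_natCast, hz2, one_zpow]
  obtain ⟨P, hP⟩ := hp.exists_le_sylow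
  refine ⟨P, ⟨negFst F, hP (Subgroup.mem_zpowers _)⟩, Subtype.ext hz2, ?_⟩
  intro x
  have h1 : detOn (P : Subgroup ((F × F) ≃ₗ[F] (F × F))) x = 1 ∨
      detOn (P : Subgroup ((F × F) ≃ₗ[F] (F × F))) x = -1 := by
    obtain ⟨k, hk⟩ := P.isPGroup' x
    have h2 : (detOn (P : Subgroup ((F × F) ≃ₗ[F] (F × F))) x) ^ (2 ^ k) = 1 := by
      rw [← map_pow, hk, map_one]
    have h4 : orderOf (detOn (P : Subgroup ((F × F) ≃ₗ[F] (F × F))) x) ∣ 2 ^ k := orderOf_dvd_of_pow_eq_one h2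
    have h5 : orderOf (detOn (P : Subgroup ((F × F) ≃ₗ[F] (F × F))) x) ∣ Fintype.card F - 1 := by
      have := orderOf_dvd_natCard (detOn (P : Subgroup ((F × F) ≃ₗ[F] (F × F))) x)
      rwa [Nat.card_units, Nat.card_eq_fintype_card] at this
    have h6 : orderOf (detOn (P : Subgroup ((F × F) ≃ₗ[F] (F × F))) x) ∣ 2 := by
      rw [Nat.dvd_prime_pow Nat.prime_two] at h4
      obtain ⟨t, -, ht⟩ := h4
      rw [ht] at h5 ⊢
      rcases Nat.lt_or_ge t 2 with h | h
      · interval_cases t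
        · norm_num
        · norm_num
      · exfalso
        have h7 : 2 ^ 2 ∣ Fintype.card F - 1 := (pow_dvd_pow 2 h).trans h5
        omega
    have h7 : (detOn (P : Subgroup ((F × F) ≃ₗ[F] (F × F))) x) ^ 2 = 1 := orderOf_dvd_iff_pow_eq_one.mp h6
    have h8 : ((detOn (P : Subgroup ((F × F) ≃ₗ[F] (F × F))) x : Fˣ) : F) ^ 2 = 1 := by
      rw [← Units.val_pow_eq_pow_val, h7, Units.val_one]
    rcases sq_eq_one_iff.mp h8 with h | h
    · left; exact Units.ext h
    · right; exact Units.ext h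
  rcases h1 with h | h
  · refine ⟨0, ?_⟩
    rw [zpow_zero, inv_one, mul_one, MonoidHom.mem_ker, h]
  · refine ⟨1, ?_⟩
    rw [zpow_one, MonoidHom.mem_ker, map_mul, map_inv, h, detOn_apply]
    change -1 * (LinearEquiv.det (negFst F))⁻¹ = 1
    rw [det_negFst, mul_inv_cancel]

end Cfsg.Agent.Lib.SylAb
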