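import Cfsg.Agent.Lib.GTwoQuat
import Cfsg.Agent.Lib.SylAbSL2

/-!
# Sylow 2-subgroups of `G₂(q)`, `q` odd
-/

set_option autoImplicit false

open scoped commutatorElement

namespace Cfsg.Agent.Lib.GTwo

open Cfsg.Lie MatTwo SylAb

variable {F : Type*} [Field F]

/-- The determinant. -/
abbrev dt (F : Type*) [Field F] : GL (Fin 2) F →* Fˣ := Matrix.GeneralLinearGroup.det

theorem dt_dgl (a b : Fˣ) : dt F (dgl (a, b)) = a * b := by
  apply Units.ext
  change (dgl (a, b)).1.det = _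
  rw [dgl_val, Matrix.det_fin_two_of]
  simp

/-- `x ↦ (x, 1)`. -/
def inl2 : (dt F).ker →* (kap F).ker where
  toFun x := ⟨(x.1, 1), by
    rw [mem_kap]
    have := x.2
    rw [MonoidHom.mem_ker] at this
    simpa using this⟩
  map_one' := rfl
  map_mul' x y := by
    apply Subtype.ext
    change ((x.1 * y.1, 1) : GL (Fin 2) F × GL (Fin 2) F) = (x.1 * y.1, 1 * 1)
    rw [mul_one]

/-- `x ↦ (1, x)`. -/
def inr2 : (dt F).ker →* (kap F).ker where
  toFun x := ⟨(1, x.1), by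
    rw [mem_kap]
    have := x.2
    rw [MonoidHom.mem_ker] at this
    simpa using this.symm⟩
  map_one' := rfl
  map_mul' x y := by
    apply Subtype.ext
    change ((1, x.1 * y.1) : GL (Fin 2) F × GL (Fin 2) F) = (1 * 1, x.1 * y.1)
    rw [mul_one]

/-- `x ↦ (x, x)`. -/
def dia2 : GL (Fin 2) F →* (kap F).ker where
  toFun x := ⟨(x, x), by rw [mem_kap]⟩
  map_one' := rfl
  map_mul' _ _ := rfl

variable [Fintype F]

theorem sylPD_kerdet (hF : Odd (Fintype.card F)) : SylPD 2 (dt F).ker := by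
  let f : Matrix.SpecialLinearGroup (Fin 2) F →* (dt F).ker :=
    (Matrix.SpecialLinearGroup.toGL).codRestrict _ (fun g => by
      rw [MonoidHom.mem_ker]
      apply Units.ext
      simp)
  have hinj : Function.Injective f := by
    intro a b h
    have h1 : Matrix.SpecialLinearGroup.toGL a = Matrix.SpecialLinearGroup.toGL b := congrArg Subtype.val h
    exact Subtype.ext (congrArg Units.val h1)
  have hsur : Function.Surjective f := by
    rintro ⟨g, hg⟩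
    refine ⟨⟨g.1, congrArg Units.val hg⟩, ?_⟩
    apply Subtype.ext
    apply Units.ext
    rfl
  refine sylPD_of_injective f hinj ?_ (sylPD_SL2 hF)
  rw [MonoidHom.range_eq_top.mpr hsur, Subgroup.index_top]
  norm_num

theorem exists_sylow_mono : ∃ (c : Fˣ) (D : Sylow 2 (GL (Fin 2) F)),
    dgl (c, 1) ∈ (D : Subgroup (GL (Fin 2) F)) ∧ wgl ∈ (D : Subgroup (GL (Fin 2) F)) ∧
      ∀ x : Fˣ, (∃ k : ℕ, x ^ (2 ^ k) = 1) → ∃ n : ℤ, x = c ^ n := by
  obtain ⟨C⟩ : Nonempty (Sylow 2 Fˣ) := inferInstance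
  obtain ⟨⟨c, hcC⟩, hc⟩ := (inferInstance : IsCyclic (C : Subgroup Fˣ))
  have hA : IsPGroup 2 (((C : Subgroup Fˣ).prod (C : Subgroup Fˣ)).map dgl) := by
    apply IsPGroup.map
    rintro ⟨⟨a, b⟩, ha, hb⟩
    obtain ⟨k, hk⟩ := C.isPGroup' ⟨a, ha⟩
    obtain ⟨l, hl⟩ := C.isPGroup' ⟨b, hb⟩
    have hk' : a ^ 2 ^ k = 1 := congrArg Subtype.val hk
    have hl' : b ^ 2 ^ l = 1 := congrArg Subtype.val hl
    refine ⟨k + l, Subtype.ext ?_⟩
    change ((a, b) : Fˣ × Fˣ) ^ (2 ^ (k + l)) = 1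
    rw [Prod.pow_mk, pow_add, pow_mul, hk', one_pow, mul_comm, pow_mul, hl', one_pow]
    rfl
  have hW : IsPGroup 2 (Subgroup.zpowers (wgl : GL (Fin 2) F)) := by
    have h2 : (wgl : GL (Fin 2) F) ^ 2 = 1 := by
      have := pow_orderOf_eq_one (wgl : GL (Fin 2) F)
      rwa [wgl_order] at this
    rintro ⟨x, hx⟩
    obtain ⟨n, rfl⟩ := hx
    refine ⟨1, Subtype.ext ?_⟩
    change (wgl ^ n) ^ (2 ^ 1) = 1
    rw [pow_one, ← zpow_natCast, ← zpow_mul, mul_comm, zpow_mul, zpow_natCast, h2, one_zpow]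
  have hN : Subgroup.zpowers (wgl : GL (Fin 2) F) ≤
      Subgroup.normalizer ((((C : Subgroup Fˣ).prod (C : Subgroup Fˣ)).map dgl : Subgroup (GL (Fin 2) F)) :
        Set (GL (Fin 2) F)) := by
    have h2 : (wgl : GL (Fin 2) F) ^ 2 = 1 := by
      have := pow_orderOf_eq_one (wgl : GL (Fin 2) F)
      rwa [wgl_order] at this
    have h3 : (wgl : GL (Fin 2) F)⁻¹ = wgl := by rw [inv_eq_iff_mul_eq_one, ← pow_two, h2]
    have h1 : ∀ g ∈ ((C : Subgroup Fˣ).prod (C : Subgroup Fˣ)).map dgl,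
        (wgl : GL (Fin 2) F) * g * wgl⁻¹ ∈ ((C : Subgroup Fˣ).prod (C : Subgroup Fˣ)).map dgl := by
      rintro _ ⟨⟨a, b⟩, ⟨ha, hb⟩, rfl⟩
      rw [wgl_conj]
      exact ⟨(b, a), ⟨hb, ha⟩, rfl⟩
    rw [Subgroup.zpowers_le, Subgroup.mem_normalizer_iff]
    intro g
    refine ⟨h1 g, fun hg => ?_⟩
    have h4 := h1 _ hg
    have h5 : (wgl : GL (Fin 2) F) * (wgl * g * wgl⁻¹) * wgl⁻¹ = g := by
      rw [h3, ← mul_assoc, ← mul_assoc, ← pow_two, h2, one_mul, mul_assoc, ← pow_two, h2, mul_one]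
    rwa [h5] at h4
  have hM := IsPGroup.to_sup_of_normal_left' hA hW hN
  obtain ⟨D, hD⟩ := hM.exists_le_sylow
  refine ⟨c, D, hD (Subgroup.mem_sup_left ⟨(c, 1), ⟨hcC, one_mem _⟩, rfl⟩),
    hD (Subgroup.mem_sup_right (Subgroup.mem_zpowers _)), ?_⟩
  rintro x ⟨k, hk⟩
  have hx : IsPGroup 2 (Subgroup.zpowers x) := by
    rintro ⟨y, n, rfl⟩
    refine ⟨k, Subtype.ext ?_⟩
    change (x ^ n) ^ (2 ^ k) = 1
    rw [← zpow_natCast, ← zpow_mul, mul_comm, zpow_mul, zpow_natCast, hk, one_zpow]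
  have h3 : IsPGroup 2 ((C : Subgroup Fˣ) ⊔ Subgroup.zpowers x : Subgroup Fˣ) :=
    IsPGroup.to_sup_of_normal_left C.isPGroup' hx
  have h4 := C.is_maximal' h3 le_sup_left
  have h5 : x ∈ (C : Subgroup Fˣ) := by
    rw [← h4]
    exact Subgroup.mem_sup_right (Subgroup.mem_zpowers x)
  obtain ⟨n, hn⟩ := hc ⟨x, h5⟩
  exact ⟨n, (congrArg Subtype.val hn).symm⟩

theorem fact_GL2 (hF : Odd (Fintype.card F)) : (Nat.card (GL (Fin 2) F)).factorization 2 =
    (Fintype.card F - 1).factorization 2 + ((Fintype.card F) ^ 2 - 1).factorization 2 := by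
  rw [Nat.card_congr (glMul (finrank_plane F)).toEquiv, fact_gl_plane hF]

theorem card_kap : Nat.card (kap F).ker * (Fintype.card F - 1) =
    Nat.card (GL (Fin 2) F) * Nat.card (GL (Fin 2) F) := by
  have hs : Function.Surjective (kap F) := by
    intro c
    refine ⟨(dgl (c, 1), 1), ?_⟩
    change dt F (dgl (c, 1)) / dt F 1 = c
    rw [dt_dgl, map_one, mul_one, div_one]
  have h1 := Subgroup.card_mul_index (kap F).ker
  rw [Subgroup.index_ker, MonoidHom.range_eq_top.mpr hs, Subgroup.card_top, Nat.card_prod,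
    ClSLn.card_units _ rfl] at h1
  exact h1

theorem card_ker_Phi : Nat.card (Phi (F := F)).ker = Fintype.card F - 1 := by
  rw [← ClSLn.card_units (F := F) _ rfl]
  symm
  refine Nat.card_congr (Equiv.ofBijective (fun c : Fˣ => ⟨dia2 (dgl (c, c)), mem_ker_Phi.mpr ⟨c, rfl⟩⟩) ⟨?_, ?_⟩)
  · intro a b h
    have h1 : dgl (a, a) = dgl (b, b) := congrArg (fun z : (Phi (F := F)).ker => z.1.1.1) h
    exact congrArg Prod.fst (dgl_injective h1)
  · rintro ⟨p, hp⟩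
    obtain ⟨c, hc⟩ := mem_ker_Phi.mp hp
    refine ⟨c, ?_⟩
    apply Subtype.ext
    apply Subtype.ext
    exact hc.symm

theorem not_dvd_index_Phi (hF : Odd (Fintype.card F)) : ¬ 2 ∣ (Phi (F := F)).range.index := by
  have hq1 : 1 < Fintype.card F := Fintype.one_lt_card
  have h1 := Subgroup.card_mul_index (Phi (F := F)).range
  rw [← Nat.card_congr (g2Equiv F).toEquiv, card_G2] at h1
  have h2 := Subgroup.card_mul_index (Phi (F := F)).ker
  rw [Subgroup.index_ker, card_ker_Phi] at h2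
  have h3 := card_kap (F := F)
  have e0 : Fintype.card F - 1 ≠ 0 := by omega
  have e1 : Nat.card (kap F).ker ≠ 0 := Nat.card_pos.ne'
  have e2 : Nat.card (GL (Fin 2) F) ≠ 0 := Nat.card_pos.ne'
  have e3 : Nat.card (Phi (F := F)).range ≠ 0 := Nat.card_pos.ne'
  have e4 : (Phi (F := F)).range.index ≠ 0 := Subgroup.index_ne_zero_of_finite
  have e5 : (Fintype.card F) ^ 6 ≠ 0 := by positivity
  have e6 : (Fintype.card F) ^ 6 - 1 ≠ 0 := by
    have : 1 < (Fintype.card F) ^ 6 := Nat.one_lt_pow (by omega) hq1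
    omega
  have e7 : (Fintype.card F) ^ 2 - 1 ≠ 0 := by
    have : 1 < (Fintype.card F) ^ 2 := Nat.one_lt_pow (by omega) hq1
    omega
  have f1 := congrArg (fun n : ℕ => n.factorization 2) h1
  have f2 := congrArg (fun n : ℕ => n.factorization 2) h2
  have f3 := congrArg (fun n : ℕ => n.factorization 2) h3
  rw [Nat.factorization_mul e3 e4, Nat.factorization_mul (mul_ne_zero e5 e6) e7, Nat.factorization_mul e5 e6] at f1
  rw [Nat.factorization_mul e0 e3] at f2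
  rw [Nat.factorization_mul e1 e0, Nat.factorization_mul e2 e2] at f3
  simp only [Finsupp.add_apply] at f1 f2 f3
  rw [v2_pow_odd hF] at f1
  have h6 := v2_even hF hq1 (i := 3) (by norm_num)
  have h33 : (3 : ℕ).factorization 2 = 0 := Nat.factorization_eq_zero_of_not_dvd (by norm_num)
  rw [h33, show 2 * 3 = 6 from rfl] at h6
  rw [h6] at f1
  rw [fact_GL2 hF] at f3
  intro h7
  have h8 : 1 ≤ ((Phi (F := F)).range.index).factorization 2 :=
    (Nat.prime_two.dvd_iff_one_le_factorization e4).mp h7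
  omega

/-- The pairs in `D × D` with equal determinants. -/
def PHs (DD : Subgroup (GL (Fin 2) F)) : Subgroup (kap F).ker := (DD.prod DD).subgroupOf (kap F).ker

omit [Fintype F] in
theorem mem_PHs {DD : Subgroup (GL (Fin 2) F)} {p : (kap F).ker} :
    p ∈ PHs DD ↔ p.1.1 ∈ DD ∧ p.1.2 ∈ DD := Iff.rfl

/-- Its image in `G₂`. -/
noncomputable def TT (DD : Subgroup (GL (Fin 2) F)) : Subgroup (G2L F) := (PHs DD).map Phi

omit [Fintype F] in
theorem isPGroup_PHs {DD : Subgroup (GL (Fin 2) F)} (hDp : IsPGroup 2 DD) : IsPGroup 2 (PHs DD) := by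
  rintro ⟨⟨⟨g, h⟩, hgh⟩, hg, hh⟩
  obtain ⟨k, hk⟩ := hDp ⟨g, hg⟩
  obtain ⟨l, hl⟩ := hDp ⟨h, hh⟩
  have hk' : g ^ 2 ^ k = 1 := congrArg Subtype.val hk
  have hl' : h ^ 2 ^ l = 1 := congrArg Subtype.val hl
  refine ⟨k + l, Subtype.ext (Subtype.ext ?_)⟩
  change ((g, h) : GL (Fin 2) F × GL (Fin 2) F) ^ (2 ^ (k + l)) = 1
  rw [Prod.pow_mk, pow_add, pow_mul, hk', one_pow, mul_comm, pow_mul, hl', one_pow]
  rfl

theorem not_dvd_index_TT (hF : Odd (Fintype.card F)) {DD : Subgroup (GL (Fin 2) F)} (hDi : ¬ 2 ∣ DD.index) :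
    ¬ 2 ∣ (TT DD).index := by
  have h1 : (PHs DD).index ∣ (DD.prod DD).index := relIndex_dvd_index
  rw [Subgroup.index_prod] at h1
  have h2 : ¬ 2 ∣ (PHs DD).index := by
    intro h
    rcases (Nat.Prime.dvd_mul Nat.prime_two).mp (h.trans h1) with h | h
    · exact hDi h
    · exact hDi h
  intro h
  rw [TT, Subgroup.index_map] at h
  rcases (Nat.Prime.dvd_mul Nat.prime_two).mp h with h | h
  · exact h2 (h.trans (Subgroup.index_dvd_of_le le_sup_left))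
  · exact not_dvd_index_Phi hF h

theorem powDer_Q (hF : Odd (Fintype.card F)) {DD : Subgroup (GL (Fin 2) F)} (hDp : IsPGroup 2 DD)
    (hDi : ¬ 2 ∣ DD.index) : PowDer 2 (DD.subgroupOf (dt F).ker) := by
  rw [← pd_iff_powDer]
  have hp : IsPGroup 2 (DD.subgroupOf (dt F).ker) :=
    hDp.comap_of_injective (dt F).ker.subtype (Subgroup.subtype_injective _)
  have hi : ¬ 2 ∣ (DD.subgroupOf (dt F).ker).index := by
    intro h
    have h2 : DD.relIndex (dt F).ker ∣ DD.index := relIndex_dvd_index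
    exact hDi (h.trans h2)
  exact sylPD_kerdet hF (hp.toSylow hi)

omit [Fintype F] in
theorem map_inl2_le (DD : Subgroup (GL (Fin 2) F)) : ((DD.subgroupOf (dt F).ker).map inl2) ≤ PHs DD := by
  rintro _ ⟨x, hx, rfl⟩
  exact ⟨hx, one_mem _⟩

omit [Fintype F] in
theorem map_inr2_le (DD : Subgroup (GL (Fin 2) F)) : ((DD.subgroupOf (dt F).ker).map inr2) ≤ PHs DD := by
  rintro _ ⟨x, hx, rfl⟩
  exact ⟨one_mem _, hx⟩

omit [Fintype F] in
theorem map_dia2_le (DD : Subgroup (GL (Fin 2) F)) : DD.map dia2 ≤ PHs DD := by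
  rintro _ ⟨x, hx, rfl⟩
  exact ⟨hx, hx⟩

omit [Fintype F] in
theorem decomp {z g h : GL (Fin 2) F} (hgh : (g, h) ∈ (kap F).ker) (n : ℤ) (h1 : (z ^ n)⁻¹ * g ∈ (dt F).ker)
    (h2 : (z ^ n)⁻¹ * h ∈ (dt F).ker) : (⟨(g, h), hgh⟩ : (kap F).ker) =
      (dia2 z) ^ n * (inl2 ⟨(z ^ n)⁻¹ * g, h1⟩ * inr2 ⟨(z ^ n)⁻¹ * h, h2⟩) := by
  rw [← map_zpow]
  apply Subtype.ext
  change ((g, h) : GL (Fin 2) F × GL (Fin 2) F) =
    (z ^ n * (((z ^ n)⁻¹ * g) * 1), z ^ n * (1 * ((z ^ n)⁻¹ * h)))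
  rw [mul_one, one_mul, mul_inv_cancel_left, mul_inv_cancel_left]

omit [Fintype F] in
theorem closure_PHs {c : Fˣ} {DD : Subgroup (GL (Fin 2) F)} (hDp : IsPGroup 2 DD) (hz : dgl (c, 1) ∈ DD)
    (hc : ∀ x : Fˣ, (∃ k : ℕ, x ^ (2 ^ k) = 1) → ∃ n : ℤ, x = c ^ n) :
    Subgroup.closure ((((DD.subgroupOf (dt F).ker).map inl2 : Subgroup (kap F).ker) : Set (kap F).ker) ∪
      ((DD.subgroupOf (dt F).ker).map inr2 : Subgroup (kap F).ker) ∪ {dia2 (dgl (c, 1))}) = PHs DD := by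
  apply le_antisymm
  · rw [Subgroup.closure_le]
    rintro x ((hx | hx) | hx)
    · exact map_inl2_le DD hx
    · exact map_inr2_le DD hx
    · rw [Set.mem_singleton_iff] at hx
      rw [hx]
      exact map_dia2_le DD ⟨dgl (c, 1), hz, rfl⟩
  · rintro ⟨⟨g, h⟩, hgh⟩ ⟨hg, hh⟩
    change g ∈ DD at hg
    change h ∈ DD at hh
    have hdet : dt F g = dt F h := mem_kap.mp hgh
    obtain ⟨n, hn⟩ : ∃ n : ℤ, dt F g = c ^ n := by
      apply hc
      obtain ⟨k, hk⟩ := hDp ⟨g, hg⟩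
      refine ⟨k, ?_⟩
      have hk' : g ^ 2 ^ k = 1 := congrArg Subtype.val hk
      rw [← map_pow, hk', map_one]
    have hzn : dt F ((dgl (c, 1)) ^ n) = c ^ n := by rw [map_zpow, dt_dgl, mul_one]
    have h1 : ((dgl (c, 1)) ^ n)⁻¹ * g ∈ (dt F).ker := by
      rw [MonoidHom.mem_ker, map_mul, map_inv, hzn, hn, inv_mul_cancel]
    have h2 : ((dgl (c, 1)) ^ n)⁻¹ * h ∈ (dt F).ker := by
      rw [MonoidHom.mem_ker, map_mul, map_inv, hzn, ← hdet, hn, inv_mul_cancel]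
    rw [decomp hgh n h1 h2]
    refine mul_mem (zpow_mem (Subgroup.subset_closure (Set.mem_union_right _ (Set.mem_singleton _))) n)
      (mul_mem ?_ ?_)
    · apply Subgroup.subset_closure
      left; left
      refine ⟨⟨_, h1⟩, ?_, rfl⟩
      change ((dgl (c, 1)) ^ n)⁻¹ * g ∈ DD
      exact mul_mem (inv_mem (zpow_mem hz n)) hg
    · apply Subgroup.subset_closure
      left; right
      refine ⟨⟨_, h2⟩, ?_, rfl⟩
      change ((dgl (c, 1)) ^ n)⁻¹ * h ∈ DD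
      exact mul_mem (inv_mem (zpow_mem hz n)) hh

omit [Fintype F] in
theorem sq_dgl (c : Fˣ) : (dgl (c, 1)) ^ 2 = dgl (c, c) * ⁅dgl (c, 1), (wgl : GL (Fin 2) F)⁆ := by
  have h2 : ⁅dgl (c, 1), (wgl : GL (Fin 2) F)⁆ = dgl (c, 1) * (wgl * dgl (c⁻¹, 1) * wgl⁻¹) := by
    rw [commutatorElement_def]
    have : (dgl (c, 1) : GL (Fin 2) F)⁻¹ = dgl (c⁻¹, 1) := by
      rw [← map_inv, Prod.inv_mk, inv_one]
    rw [this]
    simp only [mul_assoc]
  rw [h2, wgl_conj, ← map_pow, ← map_mul, ← map_mul]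
  congr 1
  ext <;> simp [pow_two]

omit [Fintype F] in
theorem Phi_sq (c : Fˣ) : (Phi (dia2 (dgl (c, 1)))) ^ 2 =
    ⁅Phi (dia2 (dgl (c, 1))), Phi (dia2 (wgl : GL (Fin 2) F))⁆ := by
  rw [← map_pow, ← map_pow, sq_dgl, map_mul, map_mul]
  have h4 : Phi (dia2 (dgl (c, c) : GL (Fin 2) F)) = 1 := by
    rw [← MonoidHom.mem_ker, mem_ker_Phi]
    exact ⟨c, rfl⟩
  rw [h4, one_mul, map_commutatorElement, map_commutatorElement]

theorem powDer_TT (hF : Odd (Fintype.card F)) {c : Fˣ} {DD : Subgroup (GL (Fin 2) F)} (hDp : IsPGroup 2 DD)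
    (hDi : ¬ 2 ∣ DD.index) (hz : dgl (c, 1) ∈ DD) (hw : wgl ∈ DD)
    (hc : ∀ x : Fˣ, (∃ k : ℕ, x ^ (2 ^ k) = 1) → ∃ n : ℤ, x = c ^ n) : PowDer 2 (TT DD) := by
  have hcl := congrArg (fun H : Subgroup (kap F).ker => H.map Phi) (closure_PHs hDp hz hc)
  simp only [MonoidHom.map_closure] at hcl
  have hQ := powDer_Q hF hDp hDi
  refine powDer_of_closure hcl ?_
  rintro _ ⟨x, ((hx | hx) | hx), rfl⟩
  · have h1 := powDer_map Phi (powDer_map inl2 hQ) (Phi x) ⟨x, hx, rfl⟩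
    have h2 : ((DD.subgroupOf (dt F).ker).map inl2).map Phi ≤ TT DD := Subgroup.map_mono (map_inl2_le DD)
    exact Subgroup.commutator_mono h2 h2 h1
  · have h1 := powDer_map Phi (powDer_map inr2 hQ) (Phi x) ⟨x, hx, rfl⟩
    have h2 : ((DD.subgroupOf (dt F).ker).map inr2).map Phi ≤ TT DD := Subgroup.map_mono (map_inr2_le DD)
    exact Subgroup.commutator_mono h2 h2 h1
  · rw [Set.mem_singleton_iff] at hx
    rw [hx, Phi_sq]
    have h2 : (DD.map dia2).map Phi ≤ TT DD := Subgroup.map_mono (map_dia2_le DD)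
    exact Subgroup.commutator_mem_commutator (h2 ⟨_, ⟨_, hz, rfl⟩, rfl⟩) (h2 ⟨_, ⟨_, hw, rfl⟩, rfl⟩)

theorem sylPD_G2 (hF : Odd (Fintype.card F)) : SylPD 2 (G2 F) := by
  obtain ⟨c, D, hz, hw, hc⟩ := exists_sylow_mono (F := F)
  exact sylPD_of_equiv (g2Equiv F).symm (sylPD_of ((isPGroup_PHs D.isPGroup').map Phi)
    (not_dvd_index_TT hF D.not_dvd_index) (powDer_TT hF D.isPGroup' D.not_dvd_index hz hw hc))

end Cfsg.Agent.Lib.GTwo
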