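import Cfsg.Agent.Lib.GUTypeB

set_option autoImplicit false
set_option linter.unusedSectionVars false

/-! Number of `SU`-classes of a type (helper96). -/

open Cfsg

namespace Cfsg.Agent.Lib.GUCount

open Module Polynomial Cfsg.Agent.Lib.FXMod Cfsg.Agent.Lib.FXType Cfsg.Agent.Lib.GLClass Cfsg.Agent.Lib.PolyStar Cfsg.Agent.Lib.HermAlg
  Cfsg.Agent.Lib.HermType Cfsg.Agent.Lib.HermType2 Cfsg.Agent.Lib.GLDet Cfsg.Agent.Lib.GLCount Cfsg.Agent.Lib Cfsg.Agent.Lib.GUType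
  Cfsg.Agent.Lib.SLCount

universe u

variable {K : Type u} [Field K] {n q : ℕ}

theorem exists_div_pow [Fintype K] (hK : Fintype.card K = q ^ 2) {x : Kˣ} (hx : x ^ (q + 1) = 1) :
    ∃ b : Kˣ, (b : K) / (b : K) ^ q = x := by
  obtain ⟨ω, hω⟩ := UnSpec.exists_ne hK
  set σ := ClUnitary.frob hK with hσ
  have hσσ : ∀ x, σ (σ x) = x := ClUnitary.frob_frob hK
  have hx' : (x : K) * σ x = 1 := by
    have := congrArg Units.val hx
    rw [Units.val_pow_eq_pow_val, pow_succ, Units.val_one, mul_comm] at this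
    exact this
  obtain ⟨y, hy⟩ : ∃ y : K, y + x * σ y ≠ 0 := by
    by_cases h1 : (1 : K) + x = 0
    · refine ⟨ω, ?_⟩
      have : (x : K) = -1 := by linear_combination h1
      rw [this]
      intro h
      exact hω (by linear_combination -h)
    · exact ⟨1, by rwa [map_one, mul_one]⟩
  refine ⟨Units.mk0 _ hy, ?_⟩
  have h2 : (y + x * σ y) ^ q = σ (y + x * σ y) := rfl
  rw [Units.val_mk0, h2, map_add, map_mul, hσσ]
  have h3 : σ y + σ x * y ≠ 0 := by
    intro h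
    apply hy
    have := congrArg (fun t => (x : K) * t) h
    simp only [mul_zero] at this
    linear_combination this - y * hx'
  rw [div_eq_iff h3]
  linear_combination (-y) * hx'

theorem sym_of_count [Finite K] {σ : K →+* K} (hσ : ∀ x, σ (σ x) = x) {s : Multiset (K[X] × ℕ)}
    (hs : ∀ d ∈ s, Good d ∧ d.1.coeff 0 ≠ 0) [DecidableEq (K[X] × ℕ)]
    (hc : ∀ (p : K[X]) (k : ℕ), p.Monic → Irreducible p → p.coeff 0 ≠ 0 → s.count (p, k) = s.count (ps σ p, k)) : SymT σ s := by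
  unfold SymT
  have hinv : ∀ d : K[X] × ℕ, Good d ∧ d.1.coeff 0 ≠ 0 → (ps σ (ps σ d.1), d.2) = d := by
    intro d hd
    rw [ps_ps hσ hd.1.1 hd.2]
  have hgd : ∀ d : K[X] × ℕ, Good d ∧ d.1.coeff 0 ≠ 0 → Good (ps σ d.1, d.2) ∧ (ps σ d.1).coeff 0 ≠ 0 := by
    intro d hd
    exact ⟨⟨ps_monic hd.1.2.1.ne_zero, ps_irreducible hσ hd.1.2.1, hd.1.2.2⟩, ps_coeff_zero hd.1.2.1.ne_zero hd.2⟩
  apply Multiset.ext.mpr
  intro b
  by_cases hb : Good b ∧ b.1.coeff 0 ≠ 0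
  · rw [Multiset.count_map, hc b.1 b.2 hb.1.1 hb.1.2.1 hb.2, Multiset.count_eq_card_filter_eq]
    congr 1
    apply Multiset.filter_congr
    intro a ha
    constructor
    · intro h
      rw [h]
      exact hinv a (hs a ha)
    · intro h
      rw [← h]
      exact (hinv b hb).symm
  · rw [Multiset.count_eq_zero.mpr (fun h => hb (hs b h)), Multiset.count_eq_zero.mpr]
    intro h
    obtain ⟨a, ha, rfl⟩ := Multiset.mem_map.mp h
    exact hb (hgd a (hs a ha))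

/-- symmetric types with exponents in `A` -/
def SA (σ : K →+* K) (A : Set ℕ) (n : ℕ) : Set (Multiset (K[X] × ℕ)) := {s | s ∈ TA K A n ∧ SymT σ s}

/-- symmetric types of determinant one -/
def S1 (σ : K →+* K) (n : ℕ) : Set (Multiset (K[X] × ℕ)) := {s | s ∈ SA σ Set.univ n ∧ dT s = 1}

theorem good_of_mem {A : Set ℕ} {s : Multiset (K[X] × ℕ)} (hs : s ∈ TA K A n) : ∀ d ∈ s, Good d ∧ d.1.coeff 0 ≠ 0 :=
  fun d hd => ⟨(hs.1 d hd).1.1, coeff_zero_ne (hs.1 d hd).1.1.1 (hs.1 d hd).1.1.2.1 (hs.1 d hd).1.2⟩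

theorem sym_of_mem_GU [Fintype K] (hK : Fintype.card K = q ^ 2) {A : GL (Fin n) K} (hA : A ∈ Cfsg.GU n K q)
    {s : Multiset (K[X] × ℕ)} (hs : MType (A : Matrix (Fin n) (Fin n) K) s) : SymT (ClUnitary.frob hK) s := by
  classical
  set σ := ClUnitary.frob hK with hσ
  have hσσ : ∀ x, σ (σ x) = x := ClUnitary.frob_frob hK
  have hgood : ∀ d ∈ s, Good d ∧ d.1.coeff 0 ≠ 0 := by
    intro d hd
    have h1 := hs.good d hd
    exact ⟨h1, coeff_zero_ne h1.1 h1.2.1 (hs.isUnit_iff.mp A.isUnit d hd)⟩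
  apply sym_of_count hσσ hgood
  intro p k hp hpi hp0
  rcases Nat.eq_zero_or_pos k with rfl | hk
  · rw [Multiset.count_eq_zero.mpr, Multiset.count_eq_zero.mpr]
    · intro h; exact absurd (hs.good _ h).2.2 (lt_irrefl 0)
    · intro h; exact absurd (hs.good _ h).2.2 (lt_irrefl 0)
  · obtain ⟨k', rfl⟩ : ∃ k', k = k' + 1 := ⟨k - 1, by omega⟩
    refine count_symm hσσ A hs ?_ p hp hpi hp0 k'
    have h1 : UnitStar.st σ (A : Matrix (Fin n) (Fin n) K) * (A : Matrix (Fin n) (Fin n) K) = 1 :=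
      (UnitStar.mem_GU_iff σ (fun x => rfl) A).mp hA
    have h2 : (((A : Matrix (Fin n) (Fin n) K).map σ).transpose)⁻¹ = (A : Matrix (Fin n) (Fin n) K) := Matrix.inv_eq_right_inv h1
    rw [h2]

theorem mem_GU_of_SU (g : Cfsg.SU n K q) : (Matrix.SpecialLinearGroup.toGL (g : Matrix.SpecialLinearGroup (Fin n) K) : GL (Fin n) K) ∈ Cfsg.GU n K q :=
  fun u v => g.2 u v

theorem tyU_mem [Fintype K] (hK : Fintype.card K = q ^ 2) (g : Cfsg.SU n K q) :
    ty (g : Matrix.SpecialLinearGroup (Fin n) K) ∈ S1 (ClUnitary.frob hK) n :=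
  ⟨⟨(ty_mem _).1, sym_of_mem_GU hK (mem_GU_of_SU g) (ty_spec _)⟩, (ty_mem _).2⟩

/-- the type of a class -/
noncomputable def PhU [Fintype K] (hK : Fintype.card K = q ^ 2) (C : ConjClasses (Cfsg.SU n K q)) : S1 (ClUnitary.frob hK) n :=
  ⟨ty (rep C).1, tyU_mem hK (rep C)⟩

/-- the gcd of `m` and the exponents -/
noncomputable def eG (m : ℕ) (s : Multiset (K[X] × ℕ)) : ℕ := Nat.gcd m (s.map Prod.snd).gcd

theorem eG_pos {m : ℕ} (hm : 0 < m) (s : Multiset (K[X] × ℕ)) : 0 < eG m s := Nat.gcd_pos_of_pos_left _ hm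

theorem conj_GU_of_type [Fintype K] (hK : Fintype.card K = q ^ 2) {A B : GL (Fin n) K} (hA : A ∈ Cfsg.GU n K q) (hB : B ∈ Cfsg.GU n K q)
    {s : Multiset (K[X] × ℕ)} (hs : MType (A : Matrix (Fin n) (Fin n) K) s) (hs' : MType (B : Matrix (Fin n) (Fin n) K) s) :
    ∃ c ∈ Cfsg.GU n K q, c * A * c⁻¹ = B := by
  have h1 : IsConj A B := by
    rw [isConj_iff_coe]
    exact hs.isConj hs'
  have h2 := (Cfsg.Agent.S2587.result hK ⟨A, hA⟩ ⟨B, hB⟩).mpr h1
  rw [isConj_iff] at h2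
  obtain ⟨c, hc⟩ := h2
  exact ⟨c, c.2, congrArg Subtype.val hc⟩

theorem det_pow_GU [Fintype K] (hK : Fintype.card K = q ^ 2) {A : GL (Fin n) K} (hA : A ∈ Cfsg.GU n K q) :
    (Matrix.GeneralLinearGroup.det A) ^ (q + 1) = 1 := by
  have h1 := (mem_GU_iff' hK A).mp hA
  have h2 := congrArg (fun g => ((Matrix.GeneralLinearGroup.det g : Kˣ) : K)) h1
  simp only [map_mul, Units.val_mul, det_stU, map_one, Units.val_one, ClUnitary.frob_apply] at h2
  apply Units.ext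
  rw [Units.val_pow_eq_pow_val, pow_succ, h2, Units.val_one]

theorem card_fiberU_le [Fintype K] (hK : Fintype.card K = q ^ 2) (s : S1 (ClUnitary.frob hK) n) :
    Nat.card {C : ConjClasses (Cfsg.SU n K q) // PhU hK C = s} ≤ eG (q + 1) s.1 := by
  obtain ⟨A, hA, hAs, hAc⟩ := exists_sym_matrix hK (good_of_mem s.2.1.1) s.2.1.2 s.2.1.1.2
  have hex : ∀ C : {C : ConjClasses (Cfsg.SU n K q) // PhU hK C = s}, ∃ c ∈ Cfsg.GU n K q,
      c * A * c⁻¹ = Matrix.SpecialLinearGroup.toGL (rep C.1).1 := by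
    intro C
    have h1 := ty_spec (rep C.1).1
    rw [show ty (rep C.1).1 = s.1 from congrArg Subtype.val C.2] at h1
    exact conj_GU_of_type hK hA (mem_GU_of_SU _) hAs h1
  choose g hgU hg using hex
  let D : Subgroup Kˣ := (Cfsg.GU n K q).map Matrix.GeneralLinearGroup.det
  let H : Subgroup D := (((Subgroup.centralizer ({A} : Set (GL (Fin n) K))) ⊓ Cfsg.GU n K q).map Matrix.GeneralLinearGroup.det).subgroupOf D
  have hinj : Function.Injective (fun C : {C : ConjClasses (Cfsg.SU n K q) // PhU hK C = s} =>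
      ((⟨Matrix.GeneralLinearGroup.det (g C), ⟨g C, hgU C, rfl⟩⟩ : D) : D ⧸ H)) := by
    intro C E hCD
    rw [QuotientGroup.eq] at hCD
    obtain ⟨y, ⟨hy, hyU⟩, hdet⟩ := hCD
    have hy' : y * A = A * y := Subgroup.mem_centralizer_singleton_iff.1 hy
    have hdet' : Matrix.GeneralLinearGroup.det y = (Matrix.GeneralLinearGroup.det (g C))⁻¹ * Matrix.GeneralLinearGroup.det (g E) := hdet
    let k : GL (Fin n) K := g E * y⁻¹ * (g C)⁻¹
    have hkU : k ∈ Cfsg.GU n K q := mul_mem (mul_mem (hgU E) (inv_mem hyU)) (inv_mem (hgU C))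
    have hk : Matrix.GeneralLinearGroup.det k = 1 := by
      change Matrix.GeneralLinearGroup.det (g E * y⁻¹ * (g C)⁻¹) = 1
      rw [map_mul, map_mul, map_inv, map_inv, hdet']
      group
    have hkx : k * Matrix.SpecialLinearGroup.toGL (rep C.1).1 * k⁻¹ =
        Matrix.SpecialLinearGroup.toGL (rep E.1).1 := by
      rw [← hg C, ← hg E]
      change g E * y⁻¹ * (g C)⁻¹ * (g C * A * (g C)⁻¹) * (g E * y⁻¹ * (g C)⁻¹)⁻¹ = g E * A * (g E)⁻¹
      calc g E * y⁻¹ * (g C)⁻¹ * (g C * A * (g C)⁻¹) * (g E * y⁻¹ * (g C)⁻¹)⁻¹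
          = g E * y⁻¹ * (A * y) * (g E)⁻¹ := by group
        _ = g E * y⁻¹ * (y * A) * (g E)⁻¹ := by rw [hy']
        _ = _ := by group
    have hconj : IsConj (rep C.1) (rep E.1) := by
      rw [isConj_iff]
      obtain ⟨k', hk'⟩ : ∃ k' : Matrix.SpecialLinearGroup (Fin n) K, (Matrix.SpecialLinearGroup.toGL k' : GL (Fin n) K) = k :=
        ⟨⟨(k : Matrix (Fin n) (Fin n) K), congrArg Units.val hk⟩, Units.ext rfl⟩
      have hk'U : k' ∈ Cfsg.SU n K q := by
        intro u v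
        have := hkU u v
        rw [← hk'] at this
        exact this
      refine ⟨⟨k', hk'U⟩, ?_⟩
      rw [← hk', ← map_inv, ← map_mul, ← map_mul] at hkx
      exact Subtype.ext (Matrix.SpecialLinearGroup.toGL_injective hkx)
    apply Subtype.ext
    rw [← mk_rep C.1, ← mk_rep E.1, ConjClasses.mk_eq_mk_iff_isConj]
    exact hconj
  have h1 : Nat.card {C : ConjClasses (Cfsg.SU n K q) // PhU hK C = s} ≤ Nat.card (D ⧸ H) := Nat.card_le_card_of_injective _ hinj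
  refine h1.trans (Nat.le_of_dvd (eG_pos (by omega) _) ?_)
  have hcyc : IsCyclic (D ⧸ H) := inferInstance
  obtain ⟨z, hz⟩ := hcyc.exists_generator
  rw [← orderOf_eq_card_of_forall_mem_zpowers hz]
  obtain ⟨b, rfl⟩ := QuotientGroup.mk_surjective z
  have hb : (b : Kˣ) ^ (q + 1) = 1 := by
    obtain ⟨x, hx, hxb⟩ := b.2
    rw [← hxb]
    exact det_pow_GU hK hx
  apply Nat.dvd_gcd
  · apply orderOf_dvd_of_pow_eq_one
    rw [← QuotientGroup.mk_pow, QuotientGroup.eq_one_iff]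
    have : b ^ (q + 1) = 1 := Subtype.ext hb
    rw [this]
    exact one_mem _
  · rw [Multiset.dvd_gcd]
    intro i hi
    obtain ⟨d, hd, rfl⟩ := Multiset.mem_map.1 hi
    apply orderOf_dvd_of_pow_eq_one
    rw [← QuotientGroup.mk_pow, QuotientGroup.eq_one_iff]
    obtain ⟨c, hc⟩ := exists_div_pow hK hb
    obtain ⟨U, hU1, hU2, hU3⟩ := hAc d hd c
    refine ⟨U, ⟨Subgroup.mem_centralizer_singleton_iff.2 hU2, hU1⟩, ?_⟩
    apply Units.ext
    rw [hU3, hc]
    rfl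

end Cfsg.Agent.Lib.GUCount
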