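import Cfsg.Agent.Lib.GUCountA

set_option autoImplicit false
set_option linter.unusedSectionVars false

/-! Class number of `SU` in terms of types (helper96). -/

open Cfsg

namespace Cfsg.Agent.Lib.GUCount

open Module Polynomial Cfsg.Agent.Lib.FXMod Cfsg.Agent.Lib.FXType Cfsg.Agent.Lib.GLClass Cfsg.Agent.Lib.PolyStar Cfsg.Agent.Lib.HermAlg
  Cfsg.Agent.Lib.HermType Cfsg.Agent.Lib.HermType2 Cfsg.Agent.Lib.GLDet Cfsg.Agent.Lib.GLCount Cfsg.Agent.Lib Cfsg.Agent.Lib.GUType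
  Cfsg.Agent.Lib.SLCount Classical

universe u

variable {K : Type u} [Field K] {n q : ℕ} {σ : K →+* K}

theorem finite_SA [Finite K] (A : Set ℕ) (n : ℕ) : (SA σ A n).Finite := (finite_TA A n).subset (fun _ h => h.1)

theorem finite_S1 [Finite K] (n : ℕ) : (S1 σ n).Finite := (finite_SA (σ := σ) Set.univ n).subset (fun _ h => h.1)

theorem eG_eq (hn : 1 ≤ n) {m : ℕ} (hm : 0 < m) {s : Multiset (K[X] × ℕ)} (hs : s ∈ S1 σ n) :
    eG m s = ∑ e ∈ (Nat.gcd n m).divisors, if ∀ d ∈ s, e ∣ d.2 then Nat.totient e else 0 := by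
  have h1 : eG m s ∣ Nat.gcd n m := by
    apply Nat.dvd_gcd
    · exact (Nat.gcd_dvd_right _ _).trans (dvd_of_forall hs.1.1 ((dvd_gcd_iff s _).1 (dvd_refl _)))
    · exact Nat.gcd_dvd_left _ _
  have h0 : Nat.gcd n m ≠ 0 := (Nat.gcd_pos_of_pos_left _ hn).ne'
  rw [← Finset.sum_filter]
  conv_lhs => rw [← Nat.sum_totient (eG m s)]
  apply Finset.sum_congr _ (fun _ _ => rfl)
  ext e
  rw [Nat.mem_divisors, Finset.mem_filter, Nat.mem_divisors]
  constructor
  · rintro ⟨h2, h3⟩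
    exact ⟨⟨h2.trans h1, h0⟩, (dvd_gcd_iff s e).1 (h2.trans (Nat.gcd_dvd_right _ _))⟩
  · rintro ⟨⟨h2, h3⟩, h4⟩
    exact ⟨Nat.dvd_gcd (h2.trans (Nat.gcd_dvd_right _ _)) ((dvd_gcd_iff s e).2 h4), (eG_pos hm s).ne'⟩

/-- symmetric types of determinant one with exponents divisible by `e` -/
def UU (σ : K →+* K) (e n : ℕ) : Set (Multiset (K[X] × ℕ)) :=
  {s | s ∈ S1 σ n ∧ ∀ d ∈ s, e ∣ d.2}

theorem kSU_le [Fintype K] (hK : Fintype.card K = q ^ 2) (hn : 1 ≤ n) :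
    Nat.card (ConjClasses (Cfsg.SU n K q)) ≤
      ∑ e ∈ (Nat.gcd n (q + 1)).divisors, Nat.totient e * Nat.card (UU (ClUnitary.frob hK) e n) := by
  have hfinC : Finite (ConjClasses (Cfsg.SU n K q)) := inferInstance
  have hfin1 := (finite_S1 (σ := ClUnitary.frob hK) n).to_subtype
  have := Fintype.ofFinite (S1 (ClUnitary.frob hK) n)
  have h2 : Nat.card (ConjClasses (Cfsg.SU n K q)) ≤ ∑ s : S1 (ClUnitary.frob hK) n, eG (q + 1) s.1 := by
    rw [← Nat.card_congr (Equiv.sigmaFiberEquiv (PhU hK (n := n))), Nat.card_sigma]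
    apply Finset.sum_le_sum
    intro s _
    exact card_fiberU_le hK s
  refine h2.trans ?_
  rw [Finset.sum_congr rfl (fun s _ => eG_eq hn (by omega) s.2), Finset.sum_comm]
  apply Finset.sum_le_sum
  intro e _
  rw [← Finset.sum_filter, Finset.sum_const, smul_eq_mul, mul_comm]
  apply Nat.mul_le_mul_left
  have hU : Finite (UU (ClUnitary.frob hK) e n) := ((finite_S1 (σ := ClUnitary.frob hK) n).subset (fun s hs => hs.1)).to_subtype
  rw [← Fintype.card_subtype, ← Nat.card_eq_fintype_card]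
  exact Nat.card_le_card_of_injective
    (fun a : {a : S1 (ClUnitary.frob hK) n // ∀ d ∈ a.1, e ∣ d.2} => (⟨a.1.1, a.1.2, a.2⟩ : UU (ClUnitary.frob hK) e n))
    (fun a b h => Subtype.ext (Subtype.ext (congrArg (fun t => t.1) h)))

theorem PhU_surjective [Fintype K] (hK : Fintype.card K = q ^ 2) : Function.Surjective (PhU hK (n := n)) := by
  intro s
  obtain ⟨A, hA, hAs, -⟩ := exists_sym_matrix hK (good_of_mem s.2.1.1) s.2.1.2 s.2.1.1.2
  have hdet : (A : Matrix (Fin n) (Fin n) K).det = 1 := by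
    rw [det_mtype hAs]; exact s.2.2
  let g : Matrix.SpecialLinearGroup (Fin n) K := ⟨A, hdet⟩
  have hg : g ∈ Cfsg.SU n K q := fun u v => hA u v
  refine ⟨ConjClasses.mk (⟨g, hg⟩ : Cfsg.SU n K q), ?_⟩
  apply Subtype.ext
  change ty (rep (ConjClasses.mk (⟨g, hg⟩ : Cfsg.SU n K q))).1 = s.1
  have h1 : IsConj (rep (ConjClasses.mk (⟨g, hg⟩ : Cfsg.SU n K q))) ⟨g, hg⟩ := by
    rw [← ConjClasses.mk_eq_mk_iff_isConj, mk_rep]
  have h2 : IsConj (rep (ConjClasses.mk (⟨g, hg⟩ : Cfsg.SU n K q))).1 g := (Cfsg.SU n K q).subtype.map_isConj h1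
  rw [ty_of_isConj h2]
  exact (ty_spec g).unique hAs

theorem card_S1_le [Fintype K] (hK : Fintype.card K = q ^ 2) :
    Nat.card (S1 (ClUnitary.frob hK) n) ≤ Nat.card (ConjClasses (Cfsg.SU n K q)) := by
  have : Finite (ConjClasses (Cfsg.SU n K q)) := inferInstance
  exact Nat.card_le_card_of_surjective _ (PhU_surjective hK)

/-! ### dividing the exponents -/

/-- symmetric types with determinant of order dividing `e` -/
def VV (σ : K →+* K) (e n : ℕ) : Set (Multiset (K[X] × ℕ)) := {s | s ∈ SA σ Set.univ n ∧ dT s ^ e = 1}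

theorem card_UU_le [Finite K] {e n : ℕ} (he : 1 ≤ e) : Nat.card (UU σ e n) ≤ Nat.card (VV σ e (n / e)) := by
  have hfin : Finite (VV σ e (n / e)) := ((finite_SA (σ := σ) Set.univ (n / e)).subset (fun t ht => ht.1)).to_subtype
  have hU : ∀ s : UU σ e n, ∀ d ∈ s.1, (Good d ∧ d.1 ≠ X) ∧ e ∣ d.2 :=
    fun s d hd => ⟨(s.2.1.1.1.1 d hd).1, s.2.2 d hd⟩
  have hsym : ∀ s : UU σ e n, SymT σ (dv e s.1) := by
    intro s
    have h1 : s.1.map (fun d => (ps σ d.1, d.2)) = s.1 := s.2.1.1.2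
    unfold SymT
    conv_rhs => rw [← h1]
    rw [dv, dv, Multiset.map_map, Multiset.map_map]
    rfl
  apply Nat.card_le_card_of_injective (fun s : UU σ e n =>
    (⟨dv e s.1, ⟨⟨⟨fun d hd => ⟨(dv_facts he (hU s)).1 d hd, Set.mem_univ _⟩, by
      have h1 := (dv_facts he (hU s)).2.1
      have h2 := s.2.1.1.1.2
      rw [h2] at h1
      exact (Nat.div_eq_of_eq_mul_right he h1).symm⟩, hsym s⟩, by
      rw [← (dv_facts he (hU s)).2.2.1]
      exact s.2.1.2⟩⟩ : VV σ e (n / e)))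
  intro s t h
  have h1 : dv e s.1 = dv e t.1 := congrArg Subtype.val h
  apply Subtype.ext
  rw [← (dv_facts he (hU s)).2.2.2, ← (dv_facts he (hU t)).2.2.2, h1]

end Cfsg.Agent.Lib.GUCount
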