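import Cfsg.Agent.Lib.GUNum

set_option autoImplicit false
set_option linter.unusedSectionVars false

/-! Class number bounds for the special unitary groups (helper96). -/

open Cfsg

namespace Cfsg.Agent.Lib.GUSplit

open Module Polynomial Cfsg.Agent.Lib.FXType Cfsg.Agent.Lib.PolyStar Cfsg.Agent.Lib.GLDet Cfsg.Agent.Lib.GLCount
  Cfsg.Agent.Lib.GUType Cfsg.Agent.Lib.GUCount Cfsg.Agent.Lib.GUPoly Cfsg.Agent.Lib UniqueFactorizationMonoid Classical

universe u

variable {K : Type u} [Field K] {σ : K →+* K}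

section

variable [Finite K] {q : ℕ} (hK : Nat.card K = q ^ 2) (hσ : ∀ x, σ (σ x) = x) (hσq : ∀ x, σ x = x ^ q) {ω : K} (hω : σ ω ≠ ω)
  (hq : 2 ≤ q)

include hK hσ hσq hω in
theorem G_two (h2 : q = 2) (N : ℕ) : G σ q 2 N ≤ 510 / 91 ∧ G σ q 3 N ≤ 204 / 91 := by
  subst h2
  have h5 := G_le_B hK hσ hσq hω (le_refl 2) 3 (by norm_num) N (N + 1) 5 (by norm_num) (by norm_num) (by omega)
  have r2 := G_rec hK hσ hσq hω (le_refl 2) (k := 2) (by norm_num) N
  have r3 := G_rec hK hσ hσq hω (le_refl 2) (k := 3) (by norm_num) N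
  have r4 := G_rec hK hσ hσq hω (le_refl 2) (k := 4) (by norm_num) N
  norm_num at h5 r2 r3 r4
  constructor <;> linarith

include hK hσ hσq hω in
theorem G_three (h3 : 3 ≤ q) (N : ℕ) : G σ q 2 N ≤ 15 / 7 ∧ (q : ℝ) * G σ q 2 N - (q - 1) ≤ 31 / 7 := by
  rcases Nat.eq_or_lt_of_le h3 with h | h
  · subst h
    have h5 := G_le_B hK hσ hσq hω (by norm_num) 2 (by norm_num) N (N + 1) 3 (by norm_num) (by norm_num) (by omega)
    have r2 := G_rec hK hσ hσq hω (by norm_num) (k := 2) (by norm_num) N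
    norm_num at h5 r2
    constructor
    · linarith
    · push_cast
      linarith
  · have hq4 : (4 : ℝ) ≤ q := by exact_mod_cast h
    have hq1 : (q : ℝ) - 1 ≠ 0 := by linarith
    have hr : ((q : ℝ) + 1) / (q - 1) * (q - 1) = q + 1 := by field_simp
    have e1 : ((q : ℝ) + 1) / (q - 1) * q * (1 / (q : ℝ)) ^ 2 = (q + 1) / (q * (q - 1)) := by
      field_simp
    have h5 := G_le_B hK hσ hσq hω (by omega) _ hr N (N + 1) 2 (by norm_num) (by
      rw [e1, div_lt_one (by nlinarith)]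
      nlinarith) (by omega)
    rw [e1] at h5
    have hG := G_nonneg (σ := σ) q 2 N
    set g := G σ q 2 N
    have h6 : g * ((q : ℝ) * (q - 1) - (q + 1)) ≤ q * (q - 1) := by
      have h7 : (q : ℝ) * (q - 1) ≠ 0 := by
        apply mul_ne_zero _ hq1
        linarith
      have h8 : g * (1 - (q + 1) / ((q : ℝ) * (q - 1))) * (q * (q - 1)) ≤ 1 * (q * (q - 1)) :=
        mul_le_mul_of_nonneg_right h5 (by nlinarith)
      have h9 : g * (1 - (q + 1) / ((q : ℝ) * (q - 1))) * (q * (q - 1)) = g * ((q : ℝ) * (q - 1) - (q + 1)) := by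
        field_simp
      rw [h9] at h8
      linarith
    have hpos : 0 < (q : ℝ) * (q - 1) - (q + 1) := by nlinarith
    have h7 : g ≤ 12 / 7 := by
      by_contra hc
      push Not at hc
      have : 12 / 7 * ((q : ℝ) * (q - 1) - (q + 1)) < g * ((q : ℝ) * (q - 1) - (q + 1)) := mul_lt_mul_of_pos_right hc hpos
      nlinarith
    constructor
    · linarith
    · -- q g - (q - 1) ≤ 27/7
      have h8 : ((q : ℝ) * g - (q - 1)) * ((q : ℝ) * (q - 1) - (q + 1)) ≤ q * (q * (q - 1)) - (q - 1) * ((q : ℝ) * (q - 1) - (q + 1)) := by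
        have : (q : ℝ) * (g * ((q : ℝ) * (q - 1) - (q + 1))) ≤ q * (q * (q - 1)) := mul_le_mul_of_nonneg_left h6 (by linarith)
        linarith
      by_contra hc
      push Not at hc
      have : 31 / 7 * ((q : ℝ) * (q - 1) - (q + 1)) < ((q : ℝ) * g - (q - 1)) * ((q : ℝ) * (q - 1) - (q + 1)) := mul_lt_mul_of_pos_right hc hpos
      nlinarith

theorem G_succ (q k n : ℕ) (hn : 1 ≤ n) : G σ q k n = G σ q k (n - 1) + (Ek σ k n : ℝ) / (q : ℝ) ^ n := by
  rw [G, G, Nat.sub_add_cancel hn, Finset.sum_range_succ]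

theorem rho_one (e : ℕ) (he : 1 ≤ e) (ε c : K) (hε : ε = 1 ∨ ε = -1) (hc : c ≠ 0) :
    Nat.card {a : K // a * σ a = 1 ∧ ((ε * a) ^ 1 * c) ^ e = 1} ≤ e := by
  have hε0 : ε ≠ 0 := by rcases hε with h | h <;> rw [h] <;> simp
  obtain ⟨hf, hle⟩ := SLCount.card_roots_le e he (mul_ne_zero hε0 hc)
  refine le_trans ?_ hle
  apply Nat.card_le_card_of_injective (fun a => (⟨a.1, by
    have := a.2.2
    rw [pow_one] at this
    have h2 : a.1 * (ε * c) = ε * a.1 * c := by ring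
    rw [h2]
    exact this⟩ : {δ : K // (δ * (ε * c)) ^ e = 1}))
  intro a b h
  exact Subtype.ext (congrArg (fun t => t.1) h)

theorem rho_two (hchar : (2 : K) = 0) (ε c : K) (hε : ε = 1 ∨ ε = -1) (hc : c ≠ 0) :
    Nat.card {a : K // a * σ a = 1 ∧ ((ε * a) ^ 2 * c) ^ 1 = 1} ≤ 1 := by
  have : Subsingleton {a : K // a * σ a = 1 ∧ ((ε * a) ^ 2 * c) ^ 1 = 1} := by
    constructor
    rintro ⟨a, -, ha⟩ ⟨b, -, hb⟩
    apply Subtype.ext
    change a = b
    rw [pow_one] at ha hb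
    have h1 : (ε * a) ^ 2 = (ε * b) ^ 2 := mul_right_cancel₀ hc (ha.trans hb.symm)
    have h2 : ε ^ 2 = 1 := by rcases hε with h | h <;> rw [h] <;> simp
    rw [mul_pow, mul_pow, h2, one_mul, one_mul] at h1
    have h3 : (a - b) ^ 2 = 0 := by linear_combination h1 + (b ^ 2 - a * b) * hchar
    exact sub_eq_zero.mp (pow_eq_zero_iff (by norm_num) |>.mp h3)
  exact Finite.card_le_one_iff_subsingleton.2 this

include hK hσ hσq hω in
theorem EV_one (e n : ℕ) (he : 1 ≤ e) : EV σ 1 e n ≤ EV σ 2 e n + e * Wk σ q 1 n :=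
  EV_split hK hσ hσq hω (le_refl 1) e n e (fun ε c hε hc => rho_one e he ε c hε hc)

/-! ### small values -/

include hK hσ hσq hω in
theorem small_vals : Ek σ 1 1 = q + 1 ∧ Ek σ 1 2 = (q + 1) ^ 2 ∧ Ek σ 2 1 = 0 ∧ Ek σ 2 2 = q + 1 ∧ Ek σ 2 3 = q + 1 ∧ Ek σ 2 4 = (q + 1) ^ 2 := by
  have a1 : Ek σ 2 1 = 0 := Ek_small (le_refl 1) (by norm_num)
  have a2 : Ek σ 2 2 = q + 1 := by
    rw [Ek_rec hK hσ hσq hω (k := 2) (by norm_num) (le_refl 2), Nat.sub_self, Ek_zero, Ek_zero, Ek_small (by norm_num) (by norm_num)]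
    ring
  have a3 : Ek σ 3 3 = q + 1 := by
    rw [Ek_rec hK hσ hσq hω (k := 3) (by norm_num) (le_refl 3), Nat.sub_self, Ek_zero, Ek_zero, Ek_small (by norm_num) (by norm_num)]
    ring
  have a4 : Ek σ 2 3 = q + 1 := by
    rw [Ek_rec hK hσ hσq hω (k := 2) (by norm_num) (by norm_num), show 3 - 2 = 1 by norm_num, a1, a3,
      Ek_small (by norm_num) (by norm_num)]
    ring
  have a5 : Ek σ 4 4 = q + 1 := by
    rw [Ek_rec hK hσ hσq hω (k := 4) (by norm_num) (le_refl 4), Nat.sub_self, Ek_zero, Ek_zero, Ek_small (by norm_num) (by norm_num)]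
    ring
  have a6 : Ek σ 3 4 = q + 1 := by
    rw [Ek_rec hK hσ hσq hω (k := 3) (by norm_num) (by norm_num), show 4 - 3 = 1 by norm_num, a5,
      Ek_small (by norm_num) (by norm_num), Ek_small (by norm_num) (by norm_num)]
    ring
  have a7 : Ek σ 2 4 = (q + 1) ^ 2 := by
    rw [Ek_rec hK hσ hσq hω (k := 2) (by norm_num) (by norm_num), show 4 - 2 = 2 by norm_num, a2, a6,
      Ek_small (by norm_num) (by norm_num)]
    ring
  have a8 : Ek σ 1 1 = q + 1 := by
    rw [Ek_rec hK hσ hσq hω (le_refl 1) (le_refl 1), Nat.sub_self, Ek_zero, Ek_zero, a1]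
    ring
  have a9 : Ek σ 1 2 = (q + 1) ^ 2 := by
    rw [Ek_rec hK hσ hσq hω (le_refl 1) (by norm_num), show 2 - 1 = 1 by norm_num, a8, a2, a1]
    ring
  exact ⟨a8, a9, a1, a2, a4, a7⟩

/-! ### the number of types of determinant one -/

include hK hσ hσq hω hq in
theorem M_three (h3 : 3 ≤ q) {n : ℕ} (hn : 1 ≤ n) : (EV σ 1 1 n : ℝ) ≤ 31 / 7 * (q : ℝ) ^ (n - 1) := by
  have h1 := EV_one hK hσ hσq hω 1 n (le_refl 1)
  have h2 := EV_le (σ := σ) 2 1 n
  have h4 : (EV σ 1 1 n : ℝ) ≤ Ek σ 2 n + Wk σ q 1 n := by exact_mod_cast (by omega : EV σ 1 1 n ≤ Ek σ 2 n + Wk σ q 1 n)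
  rw [W_eq hq hn] at h4
  have h5 := G_succ (σ := σ) q 2 n hn
  have h6 := sum_E_le (σ := σ) n 2 q n hn (le_refl n)
  obtain ⟨-, h7⟩ := G_three hK hσ hσq hω h3 n
  have hq0 : (0 : ℝ) < q := by positivity
  have hqn : (q : ℝ) ^ n = (q : ℝ) ^ (n - 1) * q := by rw [← pow_succ]; congr 1; omega
  set g := G σ q 2 n
  set g' := G σ q 2 (n - 1)
  set e := (Ek σ 2 n : ℝ) / (q : ℝ) ^ n with he
  have h8 : (Ek σ 2 n : ℝ) = e * ((q : ℝ) ^ (n - 1) * q) := by
    rw [he, ← hqn]; field_simp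
  have hP : (0 : ℝ) < (q : ℝ) ^ (n - 1) := by positivity
  rw [h8] at h4
  have h9 : e * ((q : ℝ) ^ (n - 1) * q) + (q : ℝ) ^ (n - 1) * g' = (q : ℝ) ^ (n - 1) * (g + (q - 1) * e) := by
    rw [h5]; ring
  rw [h9] at h4
  have h10 : g + (q - 1) * e ≤ 31 / 7 := by
    have hq1 : (1 : ℝ) ≤ q := by
      have : (3 : ℝ) ≤ q := by exact_mod_cast h3
      linarith
    have : ((q : ℝ) - 1) * e ≤ (q - 1) * (g - 1) := mul_le_mul_of_nonneg_left h6 (by linarith)
    linarith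
  calc (EV σ 1 1 n : ℝ) ≤ (q : ℝ) ^ (n - 1) * (g + (q - 1) * e) := h4
    _ ≤ (q : ℝ) ^ (n - 1) * (31 / 7) := mul_le_mul_of_nonneg_left h10 hP.le
    _ = _ := by ring

include hK hσ hσq hω in
theorem M_two (h2 : q = 2) {n : ℕ} (hn : 1 ≤ n) : (EV σ 1 1 n : ℝ) ≤ 1982 / 273 * (2 : ℝ) ^ (n - 1) := by
  have hchar : (2 : K) = 0 := by
    have h1 : ((Nat.card K : ℕ) : K) = 0 := by
      have := Fintype.ofFinite K
      rw [Nat.card_eq_fintype_card]
      exact Nat.cast_card_eq_zero K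
    rw [hK, h2] at h1
    have h3 : (2 : K) * 2 = 0 := by
      push_cast at h1
      linear_combination h1
    exact mul_self_eq_zero.mp h3
  have h1 := EV_one hK hσ hσq hω 1 n (le_refl 1)
  have h3 := EV_split hK hσ hσq hω (k := 2) (by norm_num) 1 n 1 (fun ε c hε hc => rho_two hchar ε c hε hc)
  have h4 := EV_le (σ := σ) 3 1 n
  have h5 := Ek_eq_W hK hσ hσq hω (k := 2) (by norm_num) n
  have h6 : 3 * EV σ 1 1 n ≤ 3 * Wk σ q 1 n + Ek σ 2 n + 2 * Ek σ 3 n := by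
    rw [h2] at h1 h3 h5 ⊢
    norm_num at h1 h3 h5
    omega
  have h7 : (3 : ℝ) * EV σ 1 1 n ≤ 3 * Wk σ q 1 n + Ek σ 2 n + 2 * Ek σ 3 n := by exact_mod_cast h6
  rw [W_eq (by omega) hn] at h7
  have g1 := G_succ (σ := σ) q 2 n hn
  have g3 := sum_E_le (σ := σ) n 3 q n hn (le_refl n)
  obtain ⟨b1, b2⟩ := G_two hK hσ hσq hω h2 n
  have e2pos : 0 ≤ (Ek σ 2 n : ℝ) / (q : ℝ) ^ n := by positivity
  have hqr : (q : ℝ) = 2 := by rw [h2]; norm_num
  have hqn : (q : ℝ) ^ n = (q : ℝ) ^ (n - 1) * q := by rw [← pow_succ]; congr 1; omega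
  set e2 := (Ek σ 2 n : ℝ) / (q : ℝ) ^ n with he2
  set e3 := (Ek σ 3 n : ℝ) / (q : ℝ) ^ n with he3
  have hP : (0 : ℝ) < (q : ℝ) ^ n := by rw [hqr]; positivity
  have h8 : (Ek σ 2 n : ℝ) = e2 * ((q : ℝ) ^ (n - 1) * q) := by
    rw [he2, ← hqn]; field_simp
  have h9 : (Ek σ 3 n : ℝ) = e3 * ((q : ℝ) ^ (n - 1) * q) := by
    rw [he3, ← hqn]; field_simp
  rw [h8, h9, hqr] at h7
  have h10 : (3 : ℝ) * EV σ 1 1 n ≤ (2 : ℝ) ^ (n - 1) * (3 * G σ q 2 (n - 1) + 2 * e2 + 4 * e3) := by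
    have : (2 : ℝ) ^ (n - 1) * (3 * G σ q 2 (n - 1) + 2 * e2 + 4 * e3) =
      3 * ((2 : ℝ) ^ (n - 1) * G σ q 2 (n - 1)) + e2 * ((2 : ℝ) ^ (n - 1) * 2) + 2 * (e3 * ((2 : ℝ) ^ (n - 1) * 2)) := by ring
    rw [this]
    exact h7
  have h11 : 3 * G σ q 2 (n - 1) + 2 * e2 + 4 * e3 ≤ 1982 / 91 := by linarith
  have hP2 : (0 : ℝ) < (2 : ℝ) ^ (n - 1) := by positivity
  have h12 : (2 : ℝ) ^ (n - 1) * (3 * G σ q 2 (n - 1) + 2 * e2 + 4 * e3) ≤ (2 : ℝ) ^ (n - 1) * (1982 / 91) :=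
    mul_le_mul_of_nonneg_left h11 hP2.le
  linarith

include hK hσ hσq hω hq in
theorem K_le (P : ℝ) (c : ℝ) {m : ℕ} (hm : 1 ≤ m) (hP : G σ q 2 m ≤ P) (hc : P * (2 + 1 / q) - 1 ≤ c) :
    (Ek σ 1 m : ℝ) ≤ c * (q : ℝ) ^ m := by
  have h1 := Ek_eq_W hK hσ hσq hω (le_refl 1) m
  have h2 : (Ek σ 1 m : ℝ) = Ek σ 2 m + (q + 1) * Wk σ q 1 m := by exact_mod_cast h1
  rw [W_eq hq hm] at h2
  have g1 := G_succ (σ := σ) q 2 m hm
  have g2 := sum_E_le (σ := σ) m 2 q m hm (le_refl m)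
  have hq0 : (0 : ℝ) < q := by positivity
  have e2pos : 0 ≤ (Ek σ 2 m : ℝ) / (q : ℝ) ^ m := by positivity
  have hqn : (q : ℝ) ^ m = (q : ℝ) ^ (m - 1) * q := by rw [← pow_succ]; congr 1; omega
  set e2 := (Ek σ 2 m : ℝ) / (q : ℝ) ^ m with he2
  have h8 : (Ek σ 2 m : ℝ) = e2 * (q : ℝ) ^ m := by
    rw [he2]; field_simp
  have h9 : (q + 1 : ℝ) * ((q : ℝ) ^ (m - 1) * G σ q 2 (m - 1)) = (1 + 1 / q) * G σ q 2 (m - 1) * (q : ℝ) ^ m := by
    rw [hqn]; field_simp
  rw [h2, h8, h9, ← add_mul]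
  apply mul_le_mul_of_nonneg_right _ (by positivity)
  have h10 : (1 + 1 / (q : ℝ)) * G σ q 2 (m - 1) ≤ (1 + 1 / q) * P := mul_le_mul_of_nonneg_left (by linarith) (by positivity)
  have h11 : P * (2 + 1 / q) - 1 = (P - 1) + (1 + 1 / q) * P := by ring
  linarith

end

theorem SA_univ (n : ℕ) : SA σ Set.univ n = SA σ (Set.Ici 1) n := by
  ext s
  constructor
  · rintro ⟨h1, h2⟩
    exact ⟨⟨fun d hd => ⟨(h1.1 d hd).1, (snd_le_of_mem h1 hd).1⟩, h1.2⟩, h2⟩
  · rintro ⟨h1, h2⟩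
    exact ⟨TA_mono (Set.subset_univ _) n h1, h2⟩

theorem VV_eq (e n : ℕ) : Nat.card (VV σ e n) = EV σ 1 e n := by
  rw [EV, VV, SA_univ]
  rfl

theorem kSU_bound [Fintype K] {n q : ℕ} (hK : Fintype.card K = q ^ 2) (hn : 2 ≤ n) :
    100 * Nat.card (ConjClasses (Cfsg.SU n K q)) ≤ 826 * q ^ (n - 1) := by
  set σ := ClUnitary.frob hK with hσdef
  have hσ : ∀ x, σ (σ x) = x := ClUnitary.frob_frob hK
  have hσq : ∀ x, σ x = x ^ q := fun _ => rfl
  obtain ⟨ω, hω⟩ := UnSpec.exists_ne hK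
  have hK' : Nat.card K = q ^ 2 := by rw [Nat.card_eq_fintype_card]; exact hK
  have hq : 2 ≤ q := by
    have h1 : 1 < q ^ 2 := by rw [← hK]; exact Fintype.one_lt_card
    by_contra h
    have h2 : q ≤ 1 := by omega
    have h3 : q ^ 2 ≤ 1 ^ 2 := Nat.pow_le_pow_left h2 2
    omega
  have h1 := kSU_le hK (n := n) (by omega)
  set D := Nat.gcd n (q + 1) with hD
  have hDn : D ∣ n := Nat.gcd_dvd_left _ _
  have hDq : D ∣ q + 1 := Nat.gcd_dvd_right _ _
  have hD1 : 1 ≤ D := Nat.gcd_pos_of_pos_left _ (by omega)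
  have hDle : D ≤ n := Nat.le_of_dvd (by omega) hDn
  obtain ⟨v1, v2, v3, v4, v5, v6⟩ := small_vals hK' hσ hσq hω
  have hmain : ∀ b : ℕ, (∀ e ∈ D.divisors, 2 ≤ e → Ek σ 1 (n / e) ≤ b) →
      Nat.card (ConjClasses (Cfsg.SU n K q)) ≤ EV σ 1 1 n + (D - 1) * b := by
    intro b hb
    refine h1.trans ?_
    have h2 := SLCount.sum_tot_le hD1 (fun e => Nat.card (UU σ e n)) b (by
      intro e he h2e
      refine (card_UU_le (by omega)).trans ?_
      rw [VV_eq]
      exact (EV_le 1 e _).trans (hb e he h2e))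
    refine h2.trans ?_
    have h3 := card_UU_le (σ := σ) (e := 1) (n := n) (le_refl 1)
    rw [Nat.div_one, VV_eq] at h3
    exact Nat.add_le_add_right h3 _
  have hEV := EV_one hK' hσ hσq hω 1 n (le_refl 1)
  have hEV2 := EV_le (σ := σ) 2 1 n
  rcases Nat.lt_or_ge n 5 with h5 | h5
  · -- small n
    have hW : Wk σ q 1 n = ∑ j ∈ Finset.range n, q ^ j * Ek σ 2 (n - (j + 1)) := by
      rw [Wk, Nat.div_one]
      simp only [one_mul]
    have hdiv : ∀ e ∈ D.divisors, e ∣ n := fun e he => (Nat.dvd_of_mem_divisors he).trans hDn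
    have hgen : ∀ c : ℕ, (∀ b : ℕ, (∀ e ∈ D.divisors, 2 ≤ e → Ek σ 1 (n / e) ≤ b) → c ≤ EV σ 1 1 n + (D - 1) * b) →
        100 * c ≤ 826 * q ^ (n - 1) := ?_
    · exact hgen _ hmain
    clear hmain h1
    intro c hmain
    obtain rfl | rfl | rfl : n = 2 ∨ n = 3 ∨ n = 4 := by omega
    · have h6 := hmain (q + 1) (by
        intro e he h2e
        have h7 : e ∣ 2 := hdiv e he
        have h8 : e = 2 := le_antisymm (Nat.le_of_dvd (by norm_num) h7) h2e
        subst h8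
        rw [Nat.div_self (by norm_num), v1])
      have h7 : (D - 1) * (q + 1) ≤ 1 * (q + 1) := Nat.mul_le_mul_right _ (by omega)
      simp only [Finset.sum_range_succ, Finset.sum_range_zero] at hW
      norm_num at hW ⊢
      rw [v3, Ek_zero] at hW
      rw [hW] at hEV
      rw [v4] at hEV2
      omega
    · have h6 := hmain (q + 1) (by
        intro e he h2e
        have h7 : e ∣ 3 := hdiv e he
        have h8 : e = 3 := by
          have := (Nat.dvd_prime Nat.prime_three).mp h7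
          omega
        subst h8
        rw [Nat.div_self (by norm_num), v1])
      have h7 : (D - 1) * (q + 1) ≤ 2 * (q + 1) := Nat.mul_le_mul_right _ (by omega)
      simp only [Finset.sum_range_succ, Finset.sum_range_zero] at hW
      norm_num at hW ⊢
      rw [v3, v4, Ek_zero] at hW
      rw [hW] at hEV
      rw [v5] at hEV2
      nlinarith
    · have h6 := hmain ((q + 1) ^ 2) (by
        intro e he h2e
        have h7 : e ∣ 4 := hdiv e he
        have h8 : e = 2 ∨ e = 4 := by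
          have h9 : e ≤ 4 := Nat.le_of_dvd (by norm_num) h7
          interval_cases e
          · left; rfl
          · norm_num at h7
          · right; rfl
        rcases h8 with rfl | rfl
        · rw [show 4 / 2 = 2 by norm_num, v2]
        · rw [Nat.div_self (by norm_num), v1]
          nlinarith)
      have h7 : (D - 1) * (q + 1) ^ 2 ≤ 3 * (q + 1) ^ 2 := Nat.mul_le_mul_right _ (by omega)
      simp only [Finset.sum_range_succ, Finset.sum_range_zero] at hW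
      norm_num at hW ⊢
      rw [v3, v4, v5, Ek_zero] at hW
      rw [hW] at hEV
      rw [v6] at hEV2
      have h8 : c ≤ q ^ 3 + 5 * q ^ 2 + 10 * q + 5 := by nlinarith
      have h9 : 4 * q ≤ q ^ 3 := by nlinarith
      have h10 : 2 * q ^ 2 ≤ q ^ 3 := by nlinarith
      omega
  · -- large n
    have hP : (0 : ℝ) < (q : ℝ) ^ (n - 1) := by positivity
    suffices h : (Nat.card (ConjClasses (Cfsg.SU n K q)) : ℝ) ≤ 826 / 100 * (q : ℝ) ^ (n - 1) by
      have h2 : (100 : ℝ) * (Nat.card (ConjClasses (Cfsg.SU n K q)) : ℝ) ≤ 826 * (q : ℝ) ^ (n - 1) := by linarith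
      exact_mod_cast h2
    rcases Nat.eq_or_lt_of_le hq with hq2 | hq3
    · -- q = 2
      have hq2' : q = 2 := hq2.symm
      have hM := M_two hK' hσ hσq hω hq2' (n := n) (by omega)
      have hqr : (q : ℝ) = 2 := by rw [hq2']; norm_num
      have hD3 : D = 1 ∨ D = 3 := by
        have : D ∣ 3 := by rw [hq2'] at hDq; exact hDq
        exact (Nat.dvd_prime Nat.prime_three).mp this
      rw [hqr] at hP ⊢
      rcases hD3 with hD' | hD'
      · have h6 := hmain 0 (by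
          intro e he h2e
          rw [hD'] at he
          have := Nat.dvd_of_mem_divisors he
          have := Nat.le_of_dvd (by norm_num) this
          omega)
        have h7 : (Nat.card (ConjClasses (Cfsg.SU n K q)) : ℝ) ≤ EV σ 1 1 n := by
          exact_mod_cast (by omega : Nat.card (ConjClasses (Cfsg.SU n K q)) ≤ EV σ 1 1 n)
        linarith
      · have h3n : 3 ∣ n := by rw [← hD']; exact hDn
        obtain ⟨m, rfl⟩ := h3n
        have h6 := hmain (Ek σ 1 m) (by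
          intro e he h2e
          rw [hD'] at he
          have h7 := (Nat.dvd_prime Nat.prime_three).mp (Nat.dvd_of_mem_divisors he)
          have h8 : e = 3 := by omega
          subst h8
          rw [Nat.mul_div_cancel_left _ (by norm_num)])
        rw [hD'] at h6
        have h7 : (Nat.card (ConjClasses (Cfsg.SU (3 * m) K q)) : ℝ) ≤ EV σ 1 1 (3 * m) + 2 * Ek σ 1 m := by
          exact_mod_cast h6
        rcases Nat.eq_or_lt_of_le (show 2 ≤ m by omega) with hm | hm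
        · subst hm
          have v2' : (Ek σ 1 2 : ℝ) = 9 := by
            have : Ek σ 1 2 = 9 := by rw [v2, hq2']; norm_num
            exact_mod_cast this
          rw [v2'] at h7
          have e1 : (2 : ℝ) ^ (3 * 2 - 1) = 32 := by norm_num
          rw [e1] at hM ⊢
          linarith
        · have hb := (G_two hK' hσ hσq hω hq2' m).1
          have hK1 := K_le hK' hσ hσq hω hq (510 / 91) (1184 / 91) (m := m) (by omega) hb (by rw [hqr]; norm_num)
          rw [hqr] at hK1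
          have h8 : (2 : ℝ) ^ (3 * m - 1) = 2 ^ m * 2 ^ (2 * m - 1) := by rw [← pow_add]; congr 1; omega
          have h9 : (32 : ℝ) ≤ 2 ^ (2 * m - 1) := by
            calc (32 : ℝ) = 2 ^ 5 := by norm_num
              _ ≤ 2 ^ (2 * m - 1) := pow_le_pow_right₀ (by norm_num) (by omega)
          have h10 : (0 : ℝ) < 2 ^ m := by positivity
          have h11 : (2 : ℝ) ^ m * 32 ≤ 2 ^ (3 * m - 1) := by
            rw [h8]; exact mul_le_mul_of_nonneg_left h9 h10.le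
          linarith
    · -- q ≥ 3
      have hM := M_three hK' hσ hσq hω hq hq3 (n := n) (by omega)
      have hq3r : (3 : ℝ) ≤ q := by exact_mod_cast hq3
      have hKm : ∀ m, 1 ≤ m → Ek σ 1 m ≤ 4 * q ^ m := by
        intro m hm
        have hb := (G_three hK' hσ hσq hω hq3 m).1
        have := K_le hK' hσ hσq hω hq (15 / 7) 4 hm hb (by
          have : (1 : ℝ) / q ≤ 1 / 3 := one_div_le_one_div_of_le (by norm_num) hq3r
          linarith)
        exact_mod_cast this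
      have h6 := hmain (4 * q ^ (n / 2)) (by
        intro e he h2e
        have h7 : e ∣ n := (Nat.dvd_of_mem_divisors he).trans hDn
        have h8 : 1 ≤ n / e := Nat.div_pos (Nat.le_of_dvd (by omega) h7) (by omega)
        refine (hKm _ h8).trans ?_
        apply Nat.mul_le_mul_left
        exact Nat.pow_le_pow_right (by omega) (Nat.div_le_div_left h2e (by norm_num)))
      have h7 : (D - 1) * (4 * q ^ (n / 2)) ≤ (n - 1) * (4 * q ^ (n / 2)) := Nat.mul_le_mul_right _ (by omega)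
      -- (n - 1) * 9 ≤ 5 * 3 ^ (n - 1 - n / 2)
      have h8 : ∀ h, 3 ≤ h → 9 * (2 * h - 1) ≤ 5 * 3 ^ (h - 1) := by
        intro h hh
        induction h, hh using Nat.le_induction with
        | base => norm_num
        | succ k hk ih =>
          have : 3 ^ (k + 1 - 1) = 3 * 3 ^ (k - 1) := by rw [← pow_succ']; congr 1; omega
          rw [this]
          omega
      have h9 : 9 * (n - 1) ≤ 5 * 3 ^ (n - 1 - n / 2) := by
        have h10 := h8 (n - n / 2) (by omega)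
        have h11 : n - 1 - n / 2 = n - n / 2 - 1 := by omega
        rw [h11]
        omega
      have h10 : 9 * (n - 1) ≤ 5 * q ^ (n - 1 - n / 2) := h9.trans (Nat.mul_le_mul_left _ (Nat.pow_le_pow_left hq3 _))
      have h11 : 9 * ((n - 1) * (4 * q ^ (n / 2))) ≤ 20 * q ^ (n - 1) := by
        have e1 : q ^ (n - 1) = q ^ (n - 1 - n / 2) * q ^ (n / 2) := by rw [← pow_add]; congr 1; omega
        calc 9 * ((n - 1) * (4 * q ^ (n / 2))) = (9 * (n - 1)) * (4 * q ^ (n / 2)) := by ring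
          _ ≤ (5 * q ^ (n - 1 - n / 2)) * (4 * q ^ (n / 2)) := Nat.mul_le_mul_right _ h10
          _ = _ := by rw [e1]; ring
      have h12 : 9 * Nat.card (ConjClasses (Cfsg.SU n K q)) ≤ 9 * EV σ 1 1 n + 20 * q ^ (n - 1) := by omega
      have h13 : (9 : ℝ) * Nat.card (ConjClasses (Cfsg.SU n K q)) ≤ 9 * EV σ 1 1 n + 20 * (q : ℝ) ^ (n - 1) := by exact_mod_cast h12
      linarith

/-! ### the lower bound -/

theorem kSU_lower [Fintype K] {n q : ℕ} (hK : Fintype.card K = q ^ 2) (hn : 1 ≤ n) :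
    q ^ (n - 1) ≤ Nat.card (ConjClasses (Cfsg.SU n K q)) := by
  set σ := ClUnitary.frob hK with hσdef
  have hσ : ∀ x, σ (σ x) = x := ClUnitary.frob_frob hK
  obtain ⟨ω, hω⟩ := UnSpec.exists_ne hK
  have hK' : Nat.card K = q ^ 2 := by rw [Nat.card_eq_fintype_card]; exact hK
  refine le_trans ?_ (card_S1_le hK)
  have ha : ((-1 : K) ^ n) * σ ((-1) ^ n) = 1 := by
    rw [map_pow, map_neg, map_one, ← mul_pow]
    simp
  rw [← card_FC (l := n - 1) hK' hσ ha hω]
  have hfin := (finite_S1 (σ := σ) n).to_subtype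
  have hdeg : ∀ g : FC σ ((-1 : K) ^ n) (n - 1), (g.1.Monic ∧ g.1.coeff 0 = (-1) ^ n ∧ g.1.natDegree = n) ∧ ps σ g.1 = g.1 := by
    intro g
    have h1 := g.2.1
    refine ⟨⟨h1.1, h1.2.1, by rw [h1.2.2]; omega⟩, ?_⟩
    rw [ps_eq_Rv ha h1]
    exact g.2.2
  have h0 : ∀ g : FC σ ((-1 : K) ^ n) (n - 1), g.1.coeff 0 ≠ 0 := by
    intro g
    rw [(hdeg g).1.2.1]
    exact pow_ne_zero _ (by simp)
  apply Nat.card_le_card_of_injective (fun g : FC σ ((-1 : K) ^ n) (n - 1) => (⟨bk 1 g.1, by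
    obtain ⟨b1, b2, b3⟩ := bk_facts 1 (le_refl 1) (hdeg g).1.1 (h0 g)
    refine ⟨⟨⟨fun d hd => ⟨(b1 d hd).1, Set.mem_univ _⟩, ?_⟩, (sym_bk hσ (hdeg g).1.1 (h0 g)).mpr (hdeg g).2⟩, ?_⟩
    · rw [b2, one_mul, (hdeg g).1.2.2]
    · rw [dT_bk 1 (hdeg g).1.1 (h0 g), pow_one, dlt, (hdeg g).1.2.2, (hdeg g).1.2.1, ← mul_pow]
      simp⟩ : S1 σ n))
  intro g h hgh
  have h1 : bk 1 g.1 = bk 1 h.1 := congrArg Subtype.val hgh
  have h2 := (bk_facts 1 (le_refl 1) (hdeg g).1.1 (h0 g)).2.2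
  have h3 := (bk_facts 1 (le_refl 1) (hdeg h).1.1 (h0 h)).2.2
  rw [h1, h3] at h2
  exact Subtype.ext h2.symm

end Cfsg.Agent.Lib.GUSplit
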