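import Cfsg.Agent.Lib.GURec

set_option autoImplicit false
set_option linter.unusedSectionVars false

/-! Numerical bounds for the numbers of symmetric types (helper96). -/

open Cfsg

namespace Cfsg.Agent.Lib.GUSplit

open Module Polynomial Cfsg.Agent.Lib.FXType Cfsg.Agent.Lib.PolyStar Cfsg.Agent.Lib.GLDet Cfsg.Agent.Lib.GLCount
  Cfsg.Agent.Lib.GUType Cfsg.Agent.Lib.GUCount Cfsg.Agent.Lib.GUPoly Cfsg.Agent.Lib UniqueFactorizationMonoid Classical

universe u

variable {K : Type u} [Field K] {σ : K →+* K}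

/-- generating function at `1/q`, truncated -/
noncomputable def G (σ : K →+* K) (q k N : ℕ) : ℝ := ∑ n ∈ Finset.range (N + 1), (Ek σ k n : ℝ) / (q : ℝ) ^ n

theorem G_nonneg (q k N : ℕ) : 0 ≤ G σ q k N := Finset.sum_nonneg (fun _ _ => by positivity)

theorem sum_shift (k M : ℕ) (b : ℕ → ℝ) :
    ∑ n ∈ Finset.range M, (if k ≤ n then b (n - k) else 0) = ∑ n ∈ Finset.range (M - k), b n := by
  induction M with
  | zero => simp
  | succ M ih =>
    rw [Finset.sum_range_succ, ih]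
    split_ifs with h
    · rw [Nat.succ_sub h, Finset.sum_range_succ]
    · rw [show M + 1 - k = M - k by omega, add_zero]

section

variable [Finite K] {q : ℕ} (hK : Nat.card K = q ^ 2) (hσ : ∀ x, σ (σ x) = x) (hσq : ∀ x, σ x = x ^ q) {ω : K} (hω : σ ω ≠ ω)
  (hq : 2 ≤ q)

include hK hσ hσq hω hq in
theorem G_rec {k : ℕ} (hk : 1 ≤ k) (N : ℕ) :
    G σ q k N ≤ (1 + (1 / (q : ℝ)) ^ k) * G σ q (k + 1) N + q * (1 / (q : ℝ)) ^ k * G σ q k N := by
  have hq0 : (0 : ℝ) < q := by positivity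
  set y : ℝ := (1 / (q : ℝ)) ^ k with hy
  have hy0 : 0 ≤ y := by positivity
  have hyq : y * (q : ℝ) ^ k = 1 := by
    rw [hy, one_div, inv_pow, inv_mul_cancel₀ (by positivity)]
  have h1 : ∀ n, (Ek σ k n : ℝ) / (q : ℝ) ^ n = (Ek σ (k + 1) n : ℝ) / (q : ℝ) ^ n +
      (if k ≤ n then (fun m => q * y * ((Ek σ k m : ℝ) / (q : ℝ) ^ m) + y * ((Ek σ (k + 1) m : ℝ) / (q : ℝ) ^ m)) (n - k) else 0) := by
    intro n
    split_ifs with h
    · have h2 : (Ek σ k n : ℝ) = q * Ek σ k (n - k) + Ek σ (k + 1) n + Ek σ (k + 1) (n - k) := by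
        exact_mod_cast Ek_rec hK hσ hσq hω hk h
      have h3 : (q : ℝ) ^ n = (q : ℝ) ^ (n - k) * (q : ℝ) ^ k := by rw [← pow_add]; congr 1; omega
      have h4 : (q : ℝ) ^ (n - k) ≠ 0 := by positivity
      have h5 : (q : ℝ) ^ k ≠ 0 := by positivity
      have h6 : y = 1 / (q : ℝ) ^ k := by rw [hy, one_div, inv_pow, one_div]
      rw [h2, h3, h6]
      field_simp
      ring
    · rw [add_zero]
      congr 2
      rcases Nat.eq_zero_or_pos n with h0 | h0
      · subst h0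
        rw [Ek_zero, Ek_zero]
      · rw [Ek_small h0 (by omega), Ek_small h0 (by omega)]
  have h2 : G σ q k N = G σ q (k + 1) N + ∑ n ∈ Finset.range (N + 1 - k),
      (q * y * ((Ek σ k n : ℝ) / (q : ℝ) ^ n) + y * ((Ek σ (k + 1) n : ℝ) / (q : ℝ) ^ n)) := by
    rw [← sum_shift k (N + 1) (fun m => q * y * ((Ek σ k m : ℝ) / (q : ℝ) ^ m) + y * ((Ek σ (k + 1) m : ℝ) / (q : ℝ) ^ m))]
    rw [G, G, ← Finset.sum_add_distrib]
    exact Finset.sum_congr rfl (fun n _ => h1 n)
  have h3 : ∑ n ∈ Finset.range (N + 1 - k),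
      (q * y * ((Ek σ k n : ℝ) / (q : ℝ) ^ n) + y * ((Ek σ (k + 1) n : ℝ) / (q : ℝ) ^ n)) ≤
      ∑ n ∈ Finset.range (N + 1), (q * y * ((Ek σ k n : ℝ) / (q : ℝ) ^ n) + y * ((Ek σ (k + 1) n : ℝ) / (q : ℝ) ^ n)) := by
    apply Finset.sum_le_sum_of_subset_of_nonneg
    · intro x hx
      rw [Finset.mem_range] at hx ⊢
      omega
    · intro i _ _
      positivity
  have h4 : ∑ n ∈ Finset.range (N + 1), (q * y * ((Ek σ k n : ℝ) / (q : ℝ) ^ n) + y * ((Ek σ (k + 1) n : ℝ) / (q : ℝ) ^ n)) =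
      q * y * G σ q k N + y * G σ q (k + 1) N := by
    rw [Finset.sum_add_distrib, ← Finset.mul_sum, ← Finset.mul_sum, G, G]
  rw [h4] at h3
  linarith

theorem G_big {q k N : ℕ} (h : N + 1 ≤ k) : G σ q k N = 1 := by
  rw [G, Finset.sum_range_succ', Ek_zero]
  rw [Finset.sum_eq_zero]
  · simp
  · intro i hi
    rw [Finset.mem_range] at hi
    rw [Ek_small (by omega) (by omega)]
    simp

include hK hσ hσq hω hq in
/-- the tail bound -/
theorem G_le_B (r : ℝ) (hr : r * (q - 1) = q + 1) (N : ℕ) (d : ℕ) : ∀ k, 1 ≤ k → r * q * (1 / (q : ℝ)) ^ k < 1 → N + 1 ≤ k + d →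
    G σ q k N * (1 - r * q * (1 / (q : ℝ)) ^ k) ≤ 1 := by
  have hq0 : (2 : ℝ) ≤ q := by exact_mod_cast hq
  have hr1 : 1 ≤ r := by nlinarith
  induction d with
  | zero =>
    intro k hk1 hk hN
    rw [G_big (by omega)]
    have : 0 ≤ r * q * (1 / (q : ℝ)) ^ k := by positivity
    linarith
  | succ d ih =>
    intro k hk1 hk hN
    set x : ℝ := (1 / (q : ℝ)) ^ k with hx
    have hx0 : 0 < x := by positivity
    have hx1 : (1 / (q : ℝ)) ^ (k + 1) = x / q := by
      rw [pow_succ, ← hx]; ring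
    have h2 : r * q * (1 / (q : ℝ)) ^ (k + 1) = r * x := by
      rw [hx1]; field_simp
    have h3 : r * x < 1 := by
      have : r * x ≤ r * q * x := by
        have : 0 ≤ r * x := by positivity
        nlinarith
      linarith
    have h4 := ih (k + 1) (by omega) (by rw [h2]; exact h3) (by omega)
    rw [h2] at h4
    have h5 := G_rec hK hσ hσq hω hq hk1 N
    rw [← hx] at h5
    have hG := G_nonneg (σ := σ) q k N
    have hG' := G_nonneg (σ := σ) q (k + 1) N
    set g := G σ q k N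
    set g' := G σ q (k + 1) N
    have h6 : q * x < 1 := by
      have : q * x ≤ r * q * x := by
        have : 0 ≤ q * x := by positivity
        nlinarith
      linarith
    have h7 : g * (1 - q * x) * (1 - r * x) ≤ 1 + x := by
      have h8 : g * (1 - q * x) ≤ (1 + x) * g' := by linarith
      have h9 : g * (1 - q * x) * (1 - r * x) ≤ (1 + x) * g' * (1 - r * x) := mul_le_mul_of_nonneg_right h8 (by linarith)
      have h10 : (1 + x) * (g' * (1 - r * x)) ≤ (1 + x) * 1 := mul_le_mul_of_nonneg_left h4 (by linarith)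
      linarith
    have h8 : (1 + x) * (1 - r * q * x) ≤ (1 - q * x) * (1 - r * x) := by
      have h9 : (1 - q * x) * (1 - r * x) - (1 + x) * (1 - r * q * x) = x * (r * (q - 1) - (q + 1)) + 2 * r * q * x ^ 2 := by ring
      have h10 : 0 ≤ 2 * r * q * x ^ 2 := by positivity
      rw [hr, sub_self, mul_zero, zero_add] at h9
      linarith
    have h9 : g * ((1 + x) * (1 - r * q * x)) ≤ g * ((1 - q * x) * (1 - r * x)) := mul_le_mul_of_nonneg_left h8 hG
    have h10 : (1 + x) * (g * (1 - r * q * x)) ≤ (1 + x) * 1 := by linarith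
    exact le_of_mul_le_mul_left h10 (by linarith)

/-! ### the numbers -/

theorem sum_E_le (n k : ℕ) (q N : ℕ) (hn : 1 ≤ n) (hN : n ≤ N) : (Ek σ k n : ℝ) / (q : ℝ) ^ n ≤ G σ q k N - 1 := by
  rw [G, Finset.sum_range_succ', Ek_zero]
  simp only [Nat.cast_one, pow_zero, div_one, add_sub_cancel_right]
  have h := Finset.single_le_sum (f := fun i => (Ek σ k (i + 1) : ℝ) / (q : ℝ) ^ (i + 1)) (s := Finset.range N)
    (fun i _ => by positivity) (Finset.mem_range.mpr (show n - 1 < N by omega))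
  simp only [Nat.sub_add_cancel hn] at h
  exact h

include hq in
theorem W_eq {n : ℕ} (hn : 1 ≤ n) : (Wk σ q 1 n : ℝ) = (q : ℝ) ^ (n - 1) * G σ q 2 (n - 1) := by
  have hq0 : (q : ℝ) ≠ 0 := by positivity
  rw [Wk, Nat.div_one, G, Nat.sub_add_cancel hn, Finset.mul_sum, ← Finset.sum_range_reflect]
  push_cast
  apply Finset.sum_congr rfl
  intro j hj
  rw [Finset.mem_range] at hj
  rw [one_mul, show n - (n - 1 - j + 1) = j by omega]
  have h1 : (q : ℝ) ^ (n - 1) = (q : ℝ) ^ (n - 1 - j) * (q : ℝ) ^ j := by rw [← pow_add]; congr 1; omega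
  rw [h1]
  field_simp

end

end Cfsg.Agent.Lib.GUSplit
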