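import Cfsg.Agent.Lib.GUCountB

set_option autoImplicit false
set_option linter.unusedSectionVars false

/-! Counting conjugate-self-reciprocal polynomials (helper96). -/

open Cfsg

namespace Cfsg.Agent.Lib.GUPoly

open Module Polynomial Cfsg.Agent.Lib.PolyStar Cfsg.Agent.Lib.GLDet Cfsg.Agent.Lib.GLCount Cfsg.Agent.Lib

universe u

variable {K : Type u} [Field K] {σ : K →+* K} {a : K} {l : ℕ}

/-- conjugate reversal -/
noncomputable def Rv (σ : K →+* K) (a : K) (l : ℕ) (p : K[X]) : K[X] := a • reflect (l + 1) (p.map σ)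

theorem Rv_coeff (p : K[X]) (i : ℕ) : (Rv σ a l p).coeff i = a * σ (p.coeff (revAt (l + 1) i)) := by
  rw [Rv, coeff_smul, coeff_reflect, coeff_map, smul_eq_mul]

theorem Rv_add (p r : K[X]) : Rv σ a l (p + r) = Rv σ a l p + Rv σ a l r := by
  ext i
  rw [coeff_add, Rv_coeff, Rv_coeff, Rv_coeff, coeff_add, map_add, mul_add]

theorem Rv_sub (p r : K[X]) : Rv σ a l (p - r) = Rv σ a l p - Rv σ a l r := by
  ext i
  rw [coeff_sub, Rv_coeff, Rv_coeff, Rv_coeff, coeff_sub, map_sub, mul_sub]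

theorem Rv_smul (c : K) (p : K[X]) : Rv σ a l (c • p) = σ c • Rv σ a l p := by
  ext i
  rw [coeff_smul, Rv_coeff, Rv_coeff, coeff_smul, smul_eq_mul, smul_eq_mul, map_mul]
  ring

theorem Rv_Rv (hσ : ∀ x, σ (σ x) = x) (ha : a * σ a = 1) (p : K[X]) : Rv σ a l (Rv σ a l p) = p := by
  ext i
  rw [Rv_coeff, Rv_coeff, map_mul, hσ, revAt_invol, ← mul_assoc, ha, one_mul]

/-- monic of degree `l + 1` with constant term `a` -/
def MC (a : K) (l : ℕ) : Set K[X] := {g | g.Monic ∧ g.coeff 0 = a ∧ g.natDegree = l + 1}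

theorem ps_eq_Rv (ha : a * σ a = 1) {g : K[X]} (hg : g ∈ MC a l) : ps σ g = Rv σ a l g := by
  obtain ⟨h1, h2, h3⟩ := hg
  have ha0 : a ≠ 0 := left_ne_zero_of_mul_eq_one ha
  have h0 : g.coeff 0 ≠ 0 := by rw [h2]; exact ha0
  have h4 : (rv σ g).leadingCoeff = σ a := by
    rw [leadingCoeff, rv_natDegree, rv_eq_reflect h0, coeff_reflect, revAt_le (le_refl _), Nat.sub_self, coeff_map, h2]
  have h5 : (σ a)⁻¹ = a := inv_eq_of_mul_eq_one_left ha
  rw [ps, h4, rv_eq_reflect h0, h3, Rv, smul_eq_C_mul, h5]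

theorem norm_of_ps {g : K[X]} (hg : g.Monic) (h0 : g.coeff 0 ≠ 0) (h : ps σ g = g) : g.coeff 0 * σ (g.coeff 0) = 1 := by
  have h4 : (rv σ g).leadingCoeff = σ (g.coeff 0) := by
    rw [leadingCoeff, rv_natDegree, rv_eq_reflect h0, coeff_reflect, revAt_le (le_refl _), Nat.sub_self, coeff_map]
  have h5 : (rv σ g).coeff 0 = 1 := by
    rw [rv_eq_reflect h0, coeff_reflect, revAt_le (Nat.zero_le _), Nat.sub_zero, coeff_map]
    have : g.coeff g.natDegree = 1 := hg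
    rw [this, map_one]
  have h6 := congrArg (fun p : K[X] => p.coeff 0) h
  simp only [ps, coeff_C_mul] at h6
  rw [h4, h5, mul_one] at h6
  have hs : σ (g.coeff 0) ≠ 0 := fun h' => h0 ((map_eq_zero σ).mp h')
  rw [← h6]
  exact (congrArg (fun t => (σ (g.coeff 0))⁻¹ * σ t) h6).trans (inv_mul_cancel₀ hs)

theorem Rv_mem (ha : a * σ a = 1) {g : K[X]} (hg : g ∈ MC a l) : Rv σ a l g ∈ MC a l := by
  rw [← ps_eq_Rv ha hg]
  obtain ⟨h1, h2, h3⟩ := hg
  refine ⟨ps_monic h1.ne_zero, ?_, by rw [ps_natDegree h1.ne_zero, h3]⟩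
  rw [ps_eq_Rv ha ⟨h1, h2, h3⟩, Rv_coeff, revAt_le (Nat.zero_le _), Nat.sub_zero, ← h3]
  have : g.coeff g.natDegree = 1 := h1
  rw [this, map_one, mul_one]

/-- differences -/
noncomputable def VC (K : Type u) [Field K] (l : ℕ) : Submodule K K[X] := degreeLT K (l + 1) ⊓ LinearMap.ker (lcoeff K 0)

theorem sub_mem_VC {g h : K[X]} (hg : g ∈ MC a l) (hh : h ∈ MC a l) : g - h ∈ VC K l := by
  refine ⟨?_, ?_⟩
  · rw [SetLike.mem_coe, mem_degreeLT]
    have h1 : g.degree = h.degree := by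
      rw [degree_eq_natDegree hg.1.ne_zero, degree_eq_natDegree hh.1.ne_zero, hg.2.2, hh.2.2]
    have h2 := degree_sub_lt h1 hg.1.ne_zero (by rw [hg.1.leadingCoeff, hh.1.leadingCoeff])
    rw [degree_eq_natDegree hg.1.ne_zero, hg.2.2] at h2
    exact h2
  · rw [SetLike.mem_coe, LinearMap.mem_ker, lcoeff_apply, coeff_sub, hg.2.1, hh.2.1, sub_self]

theorem add_mem_MC {g p : K[X]} (hg : g ∈ MC a l) (hp : p ∈ VC K l) : g + p ∈ MC a l := by
  obtain ⟨h1, h2⟩ := hp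
  rw [SetLike.mem_coe, mem_degreeLT] at h1
  rw [SetLike.mem_coe, LinearMap.mem_ker, lcoeff_apply] at h2
  have h3 : p.degree < g.degree := by
    rw [degree_eq_natDegree hg.1.ne_zero, hg.2.2]; exact h1
  refine ⟨hg.1.add_of_left h3, ?_, ?_⟩
  · rw [coeff_add, h2, add_zero, hg.2.1]
  · rw [natDegree_add_eq_left_of_degree_lt h3, hg.2.2]

theorem g0_mem (a : K) (l : ℕ) : (X ^ (l + 1) + C a : K[X]) ∈ MC a l := by
  refine ⟨monic_X_pow_add_C a (by omega), ?_, natDegree_X_pow_add_C⟩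
  simp

theorem Rv_g0 (ha : a * σ a = 1) : Rv σ a l (X ^ (l + 1) + C a : K[X]) = X ^ (l + 1) + C a := by
  ext i
  rw [Rv_coeff]
  simp only [coeff_add, coeff_X_pow, coeff_C]
  rcases Nat.lt_or_ge (l + 1) i with h | h
  · rw [revAt_eq_self_of_lt h]
    rw [if_neg (by omega), if_neg (by omega)]
    simp
  · rw [revAt_le h]
    by_cases h1 : i = 0
    · subst h1
      simp
    · by_cases h2 : i = l + 1
      · subst h2
        simp [ha]
      · rw [if_neg (by omega), if_neg (by omega), if_neg h2, if_neg h1]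
        simp

/-- The self-reciprocal ones. -/
def FC (σ : K →+* K) (a : K) (l : ℕ) : Set K[X] := {g | g ∈ MC a l ∧ Rv σ a l g = g}

/-- descent -/
noncomputable def desc (a : K) (l : ℕ) (σ : K →+* K) (ω : K) (x : FC σ a l × FC σ a l) : MC a l :=
  ⟨x.1.1 + ω • (x.2.1 - (X ^ (l + 1) + C a)), add_mem_MC x.1.2.1 ((VC K l).smul_mem _ (sub_mem_VC x.2.2.1 (g0_mem a l)))⟩

theorem desc_bijective (hσ : ∀ x, σ (σ x) = x) (ha : a * σ a = 1) {ω : K} (hω : σ ω ≠ ω) :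
    Function.Bijective (desc a l σ ω) := by
  have hδ : ω - σ ω ≠ 0 := sub_ne_zero.mpr (Ne.symm hω)
  constructor
  · rintro ⟨g, h⟩ ⟨g', h'⟩ he
    have h1 : g.1 + ω • (h.1 - (X ^ (l + 1) + C a)) = g'.1 + ω • (h'.1 - (X ^ (l + 1) + C a)) := congrArg Subtype.val he
    have h2 := congrArg (Rv σ a l) h1
    rw [Rv_add, Rv_add, Rv_smul, Rv_smul, Rv_sub, Rv_sub, Rv_g0 ha, g.2.2, h.2.2, g'.2.2, h'.2.2] at h2
    have h3 : (ω - σ ω) • (h.1 - h'.1) = 0 := by
      have : (ω - σ ω) • (h.1 - h'.1) = (g.1 + ω • (h.1 - (X ^ (l + 1) + C a)) - (g'.1 + ω • (h'.1 - (X ^ (l + 1) + C a)))) -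
        (g.1 + σ ω • (h.1 - (X ^ (l + 1) + C a)) - (g'.1 + σ ω • (h'.1 - (X ^ (l + 1) + C a)))) := by
        simp only [smul_sub, sub_smul, smul_add]
        abel
      rw [this, h1, h2, sub_self, sub_self, sub_self]
    have h4 : h.1 = h'.1 := by
      rcases smul_eq_zero.mp h3 with h5 | h5
      · exact absurd h5 hδ
      · exact sub_eq_zero.mp h5
    rw [h4] at h1
    exact Prod.ext (Subtype.ext (add_right_cancel h1)) (Subtype.ext h4)
  · intro u
    set w : K[X] := (ω - σ ω)⁻¹ • (u.1 - Rv σ a l u.1) with hw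
    have hwV : w ∈ VC K l := (VC K l).smul_mem _ (sub_mem_VC u.2 (Rv_mem ha u.2))
    have hRw : Rv σ a l w = w := by
      rw [hw, Rv_smul, Rv_sub, Rv_Rv hσ ha, map_inv₀, map_sub, hσ]
      have h1 : (σ ω - ω)⁻¹ = -(ω - σ ω)⁻¹ := by rw [← neg_sub, inv_neg]
      rw [h1, neg_smul, ← smul_neg, neg_sub]
    have hdw : ω • w - σ ω • w = u.1 - Rv σ a l u.1 := by
      rw [← sub_smul, hw, smul_smul, mul_inv_cancel₀ hδ, one_smul]
    have hg : u.1 - ω • w ∈ FC σ a l := by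
      constructor
      · rw [sub_eq_add_neg]
        exact add_mem_MC u.2 ((VC K l).neg_mem ((VC K l).smul_mem _ hwV))
      · rw [Rv_sub, Rv_smul, hRw]
        have : Rv σ a l u.1 = u.1 - (ω • w - σ ω • w) := by rw [hdw]; abel
        rw [this]; abel
    have hh : (X ^ (l + 1) + C a) + w ∈ FC σ a l := by
      refine ⟨add_mem_MC (g0_mem a l) hwV, ?_⟩
      rw [Rv_add, Rv_g0 ha, hRw]
    refine ⟨(⟨_, hg⟩, ⟨_, hh⟩), ?_⟩
    apply Subtype.ext
    change u.1 - ω • w + ω • ((X ^ (l + 1) + C a) + w - (X ^ (l + 1) + C a)) = u.1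
    rw [add_sub_cancel_left, sub_add_cancel]

/-- the number of conjugate-self-reciprocal monic polynomials with given constant term -/
theorem card_FC {q : ℕ} [Finite K] (hK : Nat.card K = q ^ 2) (hσ : ∀ x, σ (σ x) = x) (ha : a * σ a = 1) {ω : K} (hω : σ ω ≠ ω) :
    Nat.card (FC σ a l) = q ^ l := by
  have h1 := Nat.card_congr (Equiv.ofBijective _ (desc_bijective (l := l) hσ ha hω))
  have h2 : Nat.card (MC a l) = Nat.card K ^ l := card_MC l a
  rw [Nat.card_prod, h2, hK, ← pow_mul, mul_comm 2 l, pow_mul, ← sq] at h1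
  exact Nat.pow_left_injective (n := 2) (by norm_num) h1

/-- symmetric polynomials -/
def SP (σ : K →+* K) (g : K[X]) : Prop := (g.Monic ∧ g.coeff 0 ≠ 0) ∧ ps σ g = g

theorem SP_iff {g : K[X]} : (SP σ g ∧ g.natDegree = l + 1 ∧ g.coeff 0 = a) ↔ (a * σ a = 1 ∧ g ∈ FC σ a l) := by
  constructor
  · rintro ⟨⟨⟨h1, h2⟩, h3⟩, h4, h5⟩
    have h6 := norm_of_ps h1 h2 h3
    rw [h5] at h6
    have h7 : g ∈ MC a l := ⟨h1, h5, h4⟩
    exact ⟨h6, h7, by rw [← ps_eq_Rv h6 h7, h3]⟩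
  · rintro ⟨h6, h7, h8⟩
    refine ⟨⟨⟨h7.1, ?_⟩, by rw [ps_eq_Rv h6 h7, h8]⟩, h7.2.2, h7.2.1⟩
    rw [h7.2.1]
    exact left_ne_zero_of_mul_eq_one h6

end Cfsg.Agent.Lib.GUPoly
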