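import Cfsg.Agent.Lib.GUSplit

set_option autoImplicit false
set_option linter.unusedSectionVars false

/-! Recursions for the numbers of symmetric types (helper96). -/

open Cfsg

namespace Cfsg.Agent.Lib.GUSplit

open Module Polynomial Cfsg.Agent.Lib.FXType Cfsg.Agent.Lib.PolyStar Cfsg.Agent.Lib.GLDet Cfsg.Agent.Lib.GLCount
  Cfsg.Agent.Lib.GUType Cfsg.Agent.Lib.GUCount Cfsg.Agent.Lib.GUPoly Cfsg.Agent.Lib UniqueFactorizationMonoid Classical

universe u

variable {K : Type u} [Field K] {σ : K →+* K}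

/-- number of symmetric types with exponents at least `k` -/
noncomputable def Ek (σ : K →+* K) (k n : ℕ) : ℕ := Nat.card (SA σ (Set.Ici k) n)

theorem sym_zero : SymT σ (0 : Multiset (K[X] × ℕ)) := rfl

theorem SA_zero (A : Set ℕ) : SA σ A 0 = {0} := by
  ext s
  rw [Set.mem_singleton_iff]
  constructor
  · rintro ⟨h1, -⟩
    rw [TA_zero] at h1
    exact h1
  · rintro rfl
    refine ⟨?_, sym_zero⟩
    rw [TA_zero]
    rfl

theorem Ek_zero (k : ℕ) : Ek σ k 0 = 1 := by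
  rw [Ek, SA_zero]
  simp

theorem SA_small {k n : ℕ} (h0 : 1 ≤ n) (h : n < k) : SA σ (Set.Ici k) n = ∅ := by
  rw [Set.eq_empty_iff_forall_notMem]
  rintro s ⟨hs, -⟩
  have h1 : s = 0 := by
    rw [Multiset.eq_zero_iff_forall_notMem]
    intro d hd
    have h1 := snd_le_of_mem hs hd
    have h2 := (hs.1 d hd).2
    rw [Set.mem_Ici] at h2
    omega
  have h2 := hs.2
  rw [h1] at h2
  simp [Tot] at h2
  omega

theorem Ek_small {k n : ℕ} (h0 : 1 ≤ n) (h : n < k) : Ek σ k n = 0 := by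
  rw [Ek, SA_small h0 h]
  simp

theorem Ici_insert (k : ℕ) : (Set.Ici k : Set ℕ) = insert k (Set.Ici (k + 1)) := by
  ext x
  simp only [Set.mem_Ici, Set.mem_insert_iff]
  omega

theorem notMem_Ici (k : ℕ) : k ∉ (Set.Ici (k + 1) : Set ℕ) := by
  simp

/-- the numbers of symmetric polynomials -/
def cc (q : ℕ) : ℕ → ℕ
  | 0 => 1
  | (j + 1) => (q + 1) * q ^ j

theorem card_SP_zero (R : K[X] → Prop) : Nat.card {g : K[X] // SP σ g ∧ g.natDegree = 0 ∧ R g} = if R 1 then 1 else 0 := by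
  have h1 : ∀ g : K[X], SP σ g ∧ g.natDegree = 0 ∧ R g ↔ g = 1 ∧ R 1 := by
    intro g
    constructor
    · rintro ⟨⟨⟨h1, -⟩, -⟩, h2, h3⟩
      have := eq_one_of_monic_natDegree_zero h1 h2
      subst this
      exact ⟨rfl, h3⟩
    · rintro ⟨rfl, h⟩
      exact ⟨⟨⟨monic_one, by simp⟩, ps_one⟩, natDegree_one, h⟩
  simp only [h1]
  split_ifs with h
  · rw [Nat.card_eq_one_iff_unique]
    exact ⟨⟨fun a b => Subtype.ext (a.2.1.trans b.2.1.symm)⟩, ⟨⟨1, rfl, h⟩⟩⟩
  · rw [Nat.card_eq_zero]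
    left
    exact ⟨fun a => h a.2.2⟩

section

variable [Finite K] {q : ℕ} (hK : Nat.card K = q ^ 2) (hσ : ∀ x, σ (σ x) = x) (hσq : ∀ x, σ x = x ^ q) {ω : K} (hω : σ ω ≠ ω)

include hK hσq in
theorem card_norm : Nat.card {a : K // a * σ a = 1} = q + 1 := by
  have := Fintype.ofFinite K
  have hK' : Fintype.card K = q ^ 2 := by rw [← Nat.card_eq_fintype_card]; exact hK
  rw [← ClUnitary.card_norm_one_units hK']
  symm
  apply Nat.card_congr
  refine ⟨fun x => ⟨x.1, ?_⟩, fun a => ⟨⟨a.1, σ a.1, a.2, by rw [mul_comm]; exact a.2⟩, ?_⟩, fun x => Subtype.ext (Units.ext rfl), fun a => rfl⟩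
  · have := congrArg Units.val x.2
    rw [Units.val_pow_eq_pow_val, Units.val_one, pow_succ] at this
    rw [hσq, mul_comm]
    exact this
  · apply Units.ext
    rw [Units.val_pow_eq_pow_val, Units.val_one, pow_succ, mul_comm]
    have := a.2
    rw [hσq] at this
    exact this

include hK hσ hσq hω in
theorem Ek_eq {k : ℕ} (hk : 1 ≤ k) (n : ℕ) :
    Ek σ k n = ∑ m ∈ Finset.range (n / k + 1), cc q m * Ek σ (k + 1) (n - k * m) := by
  have hT : ∀ m, Fintype (SA σ (Set.Ici (k + 1)) m) := fun m => (finite_SA _ m).fintype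
  have h := card_split hσ hk (notMem_Ici k) n (fun _ => True)
  simp only [and_true] at h
  have h1 : Ek σ k n = Nat.card {s : Multiset (K[X] × ℕ) // s ∈ SA σ (insert k (Set.Ici (k + 1))) n} := by
    rw [Ek, Ici_insert]
  rw [h1, h]
  apply Finset.sum_congr rfl
  intro m _
  rw [Finset.sum_const, Finset.card_univ, smul_eq_mul, mul_comm, ← Nat.card_eq_fintype_card, Ek]
  congr 1
  cases m with
  | zero =>
    have := card_SP_zero (σ := σ) (fun _ => True)
    simpa [cc] using this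
  | succ j =>
    have h2 := card_SP hK hσ hω j (fun _ => True)
    simp only [and_true] at h2
    rw [h2, card_norm hK hσq]
    rfl

include hK hσ hσq hω in
theorem Ek_rec {k : ℕ} (hk : 1 ≤ k) {n : ℕ} (hn : k ≤ n) :
    Ek σ k n = q * Ek σ k (n - k) + Ek σ (k + 1) n + Ek σ (k + 1) (n - k) := by
  rw [Ek_eq hK hσ hσq hω hk n, Ek_eq hK hσ hσq hω hk (n - k), Nat.div_eq_sub_div hk hn, Finset.sum_range_succ',
    Finset.sum_range_succ', Finset.sum_range_succ']
  have h2 : ∀ m, Ek σ (k + 1) (n - k * (m + 1)) = Ek σ (k + 1) (n - k - k * m) := by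
    intro m
    congr 1
    rw [mul_add, mul_one, Nat.sub_sub, add_comm]
  simp only [h2, cc]
  rw [mul_add, Finset.mul_sum]
  simp only [mul_zero, Nat.sub_zero, pow_zero, mul_one, one_mul]
  have h3 : ∑ i ∈ Finset.range ((n - k) / k), (q + 1) * q ^ (i + 1) * Ek σ (k + 1) (n - k - k * (i + 1)) =
      ∑ i ∈ Finset.range ((n - k) / k), q * ((q + 1) * q ^ i * Ek σ (k + 1) (n - k - k * (i + 1))) := by
    apply Finset.sum_congr rfl
    intro i _
    ring
  rw [h3]
  ring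

/-- the auxiliary sum -/
noncomputable def Wk (σ : K →+* K) (q k n : ℕ) : ℕ := ∑ j ∈ Finset.range (n / k), q ^ j * Ek σ (k + 1) (n - k * (j + 1))

include hK hσ hσq hω in
theorem Ek_eq_W {k : ℕ} (hk : 1 ≤ k) (n : ℕ) : Ek σ k n = Ek σ (k + 1) n + (q + 1) * Wk σ q k n := by
  rw [Ek_eq hK hσ hσq hω hk, Finset.sum_range_succ', Wk, Finset.mul_sum, add_comm]
  congr 1
  · simp [cc]
  · apply Finset.sum_congr rfl
    intro m _
    rw [cc]
    ring

/-- symmetric types with exponents at least `k` and determinant of order dividing `e` -/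
noncomputable def EV (σ : K →+* K) (k e n : ℕ) : ℕ := Nat.card {s : Multiset (K[X] × ℕ) // s ∈ SA σ (Set.Ici k) n ∧ dT s ^ e = 1}

theorem EV_le (k e n : ℕ) : EV σ k e n ≤ Ek σ k n := by
  have := (finite_SA (σ := σ) (Set.Ici k) n).to_subtype
  exact Nat.card_le_card_of_injective (fun t => (⟨t.1, t.2.1⟩ : SA σ (Set.Ici k) n))
    (fun a b h => Subtype.ext (congrArg (fun t => t.1) h))

include hK hσ hσq hω in
theorem EV_split {k : ℕ} (hk : 1 ≤ k) (e n ρ : ℕ)
    (hρ : ∀ (ε c : K), (ε = 1 ∨ ε = -1) → c ≠ 0 → Nat.card {a : K // a * σ a = 1 ∧ ((ε * a) ^ k * c) ^ e = 1} ≤ ρ) :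
    EV σ k e n ≤ EV σ (k + 1) e n + ρ * Wk σ q k n := by
  have hT : ∀ m, Fintype (SA σ (Set.Ici (k + 1)) m) := fun m => (finite_SA _ m).fintype
  have h := card_split hσ hk (notMem_Ici k) n (fun x => x ^ e = 1)
  have h1 : EV σ k e n = Nat.card {s : Multiset (K[X] × ℕ) // s ∈ SA σ (insert k (Set.Ici (k + 1))) n ∧ dT s ^ e = 1} := by
    rw [EV, Ici_insert]
  rw [h1, h, Finset.sum_range_succ', add_comm]
  apply Nat.add_le_add
  · have h2 : ∀ t : SA σ (Set.Ici (k + 1)) (n - k * 0), Nat.card {g : K[X] // SP σ g ∧ g.natDegree = 0 ∧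
        (dlt g ^ k * dT (t : Multiset (K[X] × ℕ))) ^ e = 1} = if dT (t : Multiset (K[X] × ℕ)) ^ e = 1 then 1 else 0 := by
      intro t
      rw [card_SP_zero (fun g => (dlt g ^ k * dT (t : Multiset (K[X] × ℕ))) ^ e = 1)]
      simp [dlt]
    rw [Finset.sum_congr rfl (fun t _ => h2 t), ← Finset.sum_filter, Finset.sum_const, smul_eq_mul, mul_one,
      ← Fintype.card_subtype, ← Nat.card_eq_fintype_card, EV]
    have := (finite_SA (σ := σ) (Set.Ici (k + 1)) n).to_subtype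
    have hfin : Finite {s : Multiset (K[X] × ℕ) // s ∈ SA σ (Set.Ici (k + 1)) n ∧ dT s ^ e = 1} :=
      Finite.of_injective (fun t => (⟨t.1, t.2.1⟩ : SA σ (Set.Ici (k + 1)) n)) (fun a b h => Subtype.ext (congrArg (fun t => t.1) h))
    exact Nat.card_le_card_of_injective (fun t => (⟨t.1.1, by
      have := t.1.2
      simpa using this, t.2⟩ : {s : Multiset (K[X] × ℕ) // s ∈ SA σ (Set.Ici (k + 1)) n ∧ dT s ^ e = 1}))
      (fun a b h => Subtype.ext (Subtype.ext (congrArg (fun t => t.1) h)))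
  · rw [Wk, Finset.mul_sum]
    apply Finset.sum_le_sum
    intro m _
    have h2 : ∀ t ∈ (Finset.univ : Finset (SA σ (Set.Ici (k + 1)) (n - k * (m + 1)))),
        Nat.card {g : K[X] // SP σ g ∧ g.natDegree = m + 1 ∧ (dlt g ^ k * dT (t : Multiset (K[X] × ℕ))) ^ e = 1} ≤ ρ * q ^ m := by
      intro t _
      have h3 : ∀ g : K[X], (SP σ g ∧ g.natDegree = m + 1 ∧ (dlt g ^ k * dT (t : Multiset (K[X] × ℕ))) ^ e = 1) ↔
          (SP σ g ∧ g.natDegree = m + 1 ∧ (((-1) ^ (m + 1) * g.coeff 0) ^ k * dT (t : Multiset (K[X] × ℕ))) ^ e = 1) := by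
        intro g
        constructor
        · rintro ⟨a1, a2, a3⟩
          refine ⟨a1, a2, ?_⟩
          rw [dlt, a2] at a3
          exact a3
        · rintro ⟨a1, a2, a3⟩
          refine ⟨a1, a2, ?_⟩
          rw [dlt, a2]
          exact a3
      simp only [h3]
      rw [card_SP hK hσ hω m (fun a => (((-1) ^ (m + 1) * a) ^ k * dT (t : Multiset (K[X] × ℕ))) ^ e = 1)]
      exact Nat.mul_le_mul_right _ (hρ _ _ (neg_one_pow_eq_or K (m + 1)) (SLCount.dT_ne_zero t.2.1))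
    refine (Finset.sum_le_card_nsmul _ _ _ h2).trans (le_of_eq ?_)
    rw [Finset.card_univ, ← Nat.card_eq_fintype_card, smul_eq_mul, Ek]
    ring

end

end Cfsg.Agent.Lib.GUSplit
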