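import Cfsg.Agent.Lib.GUPoly

set_option autoImplicit false
set_option linter.unusedSectionVars false

/-! Counting symmetric types by splitting off one exponent (helper96). -/

open Cfsg

namespace Cfsg.Agent.Lib.GUSplit

open Module Polynomial Cfsg.Agent.Lib.FXType Cfsg.Agent.Lib.PolyStar Cfsg.Agent.Lib.GLDet Cfsg.Agent.Lib.GLCount
  Cfsg.Agent.Lib.GUType Cfsg.Agent.Lib.GUCount Cfsg.Agent.Lib.GUPoly Cfsg.Agent.Lib UniqueFactorizationMonoid Classical

universe u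

variable {K : Type u} [Field K] {σ : K →+* K}

theorem ps_mul (p r : K[X]) : ps σ (p * r) = ps σ p * ps σ r := by
  rw [ps, ps, ps, rv_mul, leadingCoeff_mul, mul_inv, C_mul]
  ring

theorem ps_one : ps σ (1 : K[X]) = 1 := by
  have h := ps_monic (σ := σ) (one_ne_zero (α := K[X]))
  have h2 := ps_natDegree (σ := σ) (one_ne_zero (α := K[X]))
  rw [natDegree_one] at h2
  exact eq_one_of_monic_natDegree_zero h h2

theorem ps_prod (m : Multiset K[X]) : ps σ m.prod = (m.map (ps σ)).prod := by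
  induction m using Multiset.induction_on with
  | empty => rw [Multiset.map_zero, Multiset.prod_zero, ps_one]
  | cons a m ih => rw [Multiset.prod_cons, ps_mul, ih, Multiset.map_cons, Multiset.prod_cons]

theorem sym_bk (hσ : ∀ x, σ (σ x) = x) {i : ℕ} {g : K[X]} (hg : g.Monic) (h0 : g.coeff 0 ≠ 0) :
    SymT σ (bk i g) ↔ ps σ g = g := by
  have h1 : ∀ φ ∈ normalizedFactors g, φ.Monic ∧ Irreducible φ ∧ φ ≠ X := fun φ hφ => factor_facts hg h0 hφ
  have h2 : ∀ φ ∈ (normalizedFactors g).map (ps σ), φ.Monic ∧ Irreducible φ ∧ φ ≠ X := by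
    intro φ hφ
    obtain ⟨ψ, hψ, rfl⟩ := Multiset.mem_map.mp hφ
    obtain ⟨a1, a2, a3⟩ := h1 ψ hψ
    exact ⟨ps_monic a2.ne_zero, ps_irreducible hσ a2, ne_X_of_coeff_zero (ps_coeff_zero a2.ne_zero (coeff_zero_ne a1 a2 a3))⟩
  have h3 : (bk i g).map (fun d => (ps σ d.1, d.2)) = ((normalizedFactors g).map (ps σ)).map (fun φ => (φ, i)) := by
    rw [bk, Multiset.map_map, Multiset.map_map]
    rfl
  unfold SymT
  rw [h3, bk]
  constructor
  · intro h
    have h4 : (normalizedFactors g).map (ps σ) = normalizedFactors g :=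
      Multiset.map_injective (fun a b hab => congrArg Prod.fst hab) h
    have h5 := ps_prod (σ := σ) (normalizedFactors g)
    rw [h4, prod_factors hg] at h5
    exact h5
  · intro h
    have h5 := ps_prod (σ := σ) (normalizedFactors g)
    rw [prod_factors hg, h] at h5
    have h6 := (prod_monic h2).2.2.2
    rw [← h5] at h6
    rw [← h6]

theorem sym_filter {P : ℕ → Prop} {s : Multiset (K[X] × ℕ)} (h : SymT σ s) : SymT σ (s.filter (fun d => P d.2)) := by
  unfold SymT at h ⊢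
  conv_rhs => rw [← h]
  rw [Multiset.filter_map]
  rfl

theorem sym_add {s t : Multiset (K[X] × ℕ)} (h : SymT σ s) (h' : SymT σ t) : SymT σ (s + t) := by
  unfold SymT at h h' ⊢
  rw [Multiset.map_add, h, h']

theorem sym_split (i : ℕ) (s : Multiset (K[X] × ℕ)) : SymT σ s ↔ SymT σ (fi i s) ∧ SymT σ (s.filter (fun d => ¬ d.2 = i)) := by
  constructor
  · intro h
    refine ⟨?_, ?_⟩
    · have := sym_filter (P := fun j => j = i) h
      rw [fi]
      convert this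
    · have := sym_filter (P := fun j => ¬ j = i) h
      convert this
  · rintro ⟨h1, h2⟩
    have := sym_add h1 h2
    rwa [fi, Multiset.filter_add_not] at this

theorem dT_bk (i : ℕ) {g : K[X]} (hg : g.Monic) (h0 : g.coeff 0 ≠ 0) : dT (bk i g) = dlt g ^ i := by
  have h1 : ∀ m : Multiset K[X], (∀ φ ∈ m, φ.Monic) → ((m.map (fun φ => (φ, i))).map fun d => dlt d.1 ^ d.2).prod = dlt m.prod ^ i := by
    intro m
    induction m using Multiset.induction_on with
    | empty => intro _; simp [dlt]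
    | cons a m ih =>
      intro h
      have ha := h a (Multiset.mem_cons_self a m)
      have hm : ∀ φ ∈ m, φ.Monic := fun φ hφ => h φ (Multiset.mem_cons_of_mem hφ)
      rw [Multiset.map_cons, Multiset.map_cons, Multiset.prod_cons, Multiset.prod_cons, ih hm,
        dlt_mul ha (by simpa using monic_multiset_prod_of_monic m id hm), mul_pow]
  rw [dT, bk, h1 _ (fun φ hφ => (factor_facts hg h0 hφ).1), prod_factors hg]

/-- splitting off one exponent from a symmetric type -/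
theorem card_split [Finite K] (hσ : ∀ x, σ (σ x) = x) {i : ℕ} (hi : 1 ≤ i) {A : Set ℕ} (hA : i ∉ A) (n : ℕ) (Q : K → Prop)
    [∀ m, Fintype (SA σ A m)] :
    Nat.card {s : Multiset (K[X] × ℕ) // s ∈ SA σ (insert i A) n ∧ Q (dT s)} =
      ∑ m ∈ Finset.range (n / i + 1), ∑ t : SA σ A (n - i * m),
        Nat.card {g : K[X] // SP σ g ∧ g.natDegree = m ∧ Q (dlt g ^ i * dT (t : Multiset (K[X] × ℕ)))} := by
  have hfin : ∀ m, {g : K[X] | SP σ g ∧ g.natDegree = m}.Finite :=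
    fun m => (finite_P m).subset (fun g hg => ⟨hg.1.1, hg.2⟩)
  rw [← card_pairs hi n (SP σ) (fun m => SA σ A m) hfin (fun g t => Q (dlt g ^ i * dT t))]
  let e1 := splitEquiv (F := K) hi hA n
  have e2 : {s : TA K (insert i A) n // SymT σ s.1 ∧ Q (dT s.1)} ≃
      {x : {x : K[X] × Multiset (K[X] × ℕ) // (x.1.Monic ∧ x.1.coeff 0 ≠ 0) ∧
      i * x.1.natDegree ≤ n ∧ x.2 ∈ TA K A (n - i * x.1.natDegree)} //
        (ps σ x.1.1 = x.1.1 ∧ SymT σ x.1.2) ∧ Q (dlt x.1.1 ^ i * dT x.1.2)} := by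
    refine e1.subtypeEquiv (fun s => ?_)
    obtain ⟨a1, a2, a3, a4⟩ := pr_facts (i := i) (fun d hd => (s.2.1 d hd).1)
    have b1 : (e1 s).1.1 = pr i s.1 := rfl
    have b2 : (e1 s).1.2 = s.1.filter (fun d => ¬ d.2 = i) := rfl
    rw [b1, b2, sym_split i, ← a4, sym_bk hσ a1 a2]
    have b3 : dT s.1 = dlt (pr i s.1) ^ i * dT (s.1.filter (fun d => ¬ d.2 = i)) := by
      rw [← dT_bk i a1 a2, a4, ← dT_add, fi, Multiset.filter_add_not]
    rw [b3]
  refine (Nat.card_congr ?_).trans ((Nat.card_congr e2).trans (Nat.card_congr ?_))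
  · refine ⟨fun s => ⟨⟨s.1, s.2.1.1⟩, s.2.1.2, s.2.2⟩, fun s => ⟨s.1.1, ⟨s.1.2, s.2.1⟩, s.2.2⟩, fun _ => rfl, fun _ => rfl⟩
  · refine ⟨fun x => ⟨x.1.1, ⟨⟨x.1.2.1, x.2.1.1⟩, x.1.2.2.1, x.1.2.2.2, x.2.1.2⟩, x.2.2⟩,
      fun x => ⟨⟨x.1, x.2.1.1.1, x.2.1.2.1, x.2.1.2.2.1⟩, ⟨x.2.1.1.2, x.2.1.2.2.2⟩, x.2.2⟩, fun _ => rfl, fun _ => rfl⟩

/-- counting symmetric polynomials with a condition on the constant term -/
theorem card_SP [Finite K] {q : ℕ} (hK : Nat.card K = q ^ 2) (hσ : ∀ x, σ (σ x) = x) {ω : K} (hω : σ ω ≠ ω) (l : ℕ) (R : K → Prop) :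
    Nat.card {g : K[X] // SP σ g ∧ g.natDegree = l + 1 ∧ R (g.coeff 0)} = Nat.card {a : K // a * σ a = 1 ∧ R a} * q ^ l := by
  have := Fintype.ofFinite {a : K // a * σ a = 1 ∧ R a}
  have e : {g : K[X] // SP σ g ∧ g.natDegree = l + 1 ∧ R (g.coeff 0)} ≃ Σ a : {a : K // a * σ a = 1 ∧ R a}, FC σ a.1 l :=
    { toFun := fun g => ⟨⟨g.1.coeff 0, (SP_iff.mp ⟨g.2.1, g.2.2.1, rfl⟩).1, g.2.2.2⟩, ⟨g.1, (SP_iff.mp ⟨g.2.1, g.2.2.1, rfl⟩).2⟩⟩
      invFun := fun x => ⟨x.2.1, (SP_iff.mpr ⟨x.1.2.1, x.2.2⟩).1, (SP_iff.mpr ⟨x.1.2.1, x.2.2⟩).2.1, by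
        rw [(SP_iff.mpr ⟨x.1.2.1, x.2.2⟩).2.2]
        exact x.1.2.2⟩
      left_inv := fun _ => rfl
      right_inv := by
        rintro ⟨⟨a, ha⟩, ⟨g, hg⟩⟩
        have : g.coeff 0 = a := (SP_iff.mpr ⟨ha.1, hg⟩).2.2
        subst this
        rfl }
  have hF : ∀ a : {a : K // a * σ a = 1 ∧ R a}, Finite (FC σ a.1 l) := by
    intro a
    have := finite_MS (F := K) (l + 1)
    exact ((Set.toFinite (MS K (l + 1))).subset (fun g hg => ⟨hg.1.1, hg.1.2.2⟩)).to_subtype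
  rw [Nat.card_congr e, Nat.card_sigma]
  rw [Finset.sum_congr rfl (fun a _ => card_FC hK hσ a.2.1 hω), Finset.sum_const, Finset.card_univ, smul_eq_mul,
    Nat.card_eq_fintype_card]

end Cfsg.Agent.Lib.GUSplit
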