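import Cfsg.Agent.Lib.HermType

set_option autoImplicit false
set_option linter.unusedSectionVars false

/-! Existence of isometries of hermitian forms with given types (helper43). -/

namespace Cfsg.Agent.Lib.HermType2

open Module Polynomial Cfsg.Agent.Lib.FXMod Cfsg.Agent.Lib.FXType Cfsg.Agent.Lib.GLClass Cfsg.Agent.Lib.PolyStar Cfsg.Agent.Lib.HermAlg

universe u

variable {K : Type u} [Field K] {σ : K →+* K}

/-- realised by a hermitian isometry -/
def HReal (σ : K →+* K) (s : Multiset (K[X] × ℕ)) : Prop :=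
  ∃ (V : Type u) (_ : AddCommGroup V) (_ : Module K V) (h : V → V → K) (f : Module.End K V),
    IsHerm σ 1 h ∧ (∀ x y, h (f x) (f y) = h x y) ∧ HasType f s

theorem HReal_zero : HReal σ 0 := by
  refine ⟨PUnit, inferInstance, inferInstance, fun _ _ => 0, 1, ⟨?_, ?_, ?_, ?_⟩, fun _ _ => rfl, ?_⟩
  · intro _ _ _; rw [add_zero]
  · intro _ _ _; rw [mul_zero]
  · intro _ _; rw [map_zero, mul_zero]
  · intro _ _; rfl
  · exact hasType_zero _

theorem HReal_add {m m' : Multiset (K[X] × ℕ)} (h : HReal σ m) (h' : HReal σ m') : HReal σ (m + m') := by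
  obtain ⟨V, _, _, B, f, h1, h2, h3⟩ := h
  obtain ⟨V', _, _, B', f', h1', h2', h3'⟩ := h'
  refine ⟨V × V', inferInstance, inferInstance, fun x y => B x.1 y.1 + B' x.2 y.2, LinearMap.prodMap f f', ⟨?_, ?_, ?_, ?_⟩, ?_, h3.prod h3'⟩
  · intro x y z
    rw [Prod.fst_add, Prod.snd_add, h1.add_left, h1'.add_left]; ring
  · intro c x y
    rw [Prod.smul_fst, Prod.smul_snd, h1.smul_left, h1'.smul_left]; ring
  · intro x y
    rw [h1.symm, h1'.symm, map_add]; ring
  · intro x hx
    apply Prod.ext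
    · apply h1.nondeg
      intro y
      have := hx (y, 0)
      simp only [h1'.zero_right, add_zero] at this
      exact this
    · apply h1'.nondeg
      intro y
      have := hx (0, y)
      simp only [h1.zero_right, zero_add] at this
      exact this
  · intro x y
    show B (f x.1) (f y.1) + B' (f' x.2) (f' y.2) = _
    rw [h2, h2']

/-- root of the cyclic module -/
noncomputable abbrev rt (d : K[X] × ℕ) : Cyc d := AdjoinRoot.root _

theorem rt_unit {d : K[X] × ℕ} (h0 : d.1.coeff 0 ≠ 0) : IsUnit (rt d) := by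
  have h1 : IsCoprime X (d.1 ^ d.2) := by
    apply IsCoprime.pow_right
    rw [irreducible_X.coprime_iff_not_dvd, X_dvd_iff]
    exact h0
  obtain ⟨a, b, hab⟩ := h1
  have h2 := congrArg (AdjoinRoot.mk (d.1 ^ d.2)) hab
  rw [map_add, map_mul, map_mul, AdjoinRoot.mk_self, mul_zero, add_zero, AdjoinRoot.mk_X, map_one] at h2
  exact isUnit_iff_exists_inv'.mpr ⟨_, h2⟩

/-- the semilinear ring homomorphism inverting the root -/
theorem exists_phi (hσ : ∀ x, σ (σ x) = x) {d : K[X] × ℕ} (hd : Good d) (h0 : d.1.coeff 0 ≠ 0) :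
    ∃ φ : Cyc (ps σ d.1, d.2) →+* Cyc d, φ (rt _) * rt d = 1 ∧ ∀ c, φ (algebraMap K _ c) = algebraMap K _ (σ c) := by
  obtain ⟨u, hu⟩ := rt_unit h0
  let v : Cyc d := ((u⁻¹ : (Cyc d)ˣ) : Cyc d)
  have hvr : v * rt d = 1 := by rw [← hu]; exact Units.inv_mul u
  have hrv : rt d * v = 1 := by rw [mul_comm]; exact hvr
  have hne := hd.2.1.ne_zero
  have hz : eval₂ ((algebraMap K (Cyc d)).comp σ) v (ps σ d.1 ^ d.2) = 0 := by
    rw [← eval₂_map, Polynomial.map_pow, eval₂_pow]
    have h1 : (ps σ d.1).map σ = C (σ (rv σ d.1).leadingCoeff⁻¹) * reflect d.1.natDegree d.1 := by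
      rw [ps, Polynomial.map_mul, map_C, rv_eq_reflect h0, reflect_map, Polynomial.map_map]
      have : σ.comp σ = RingHom.id K := RingHom.ext hσ
      rw [this, Polynomial.map_id]
    rw [h1, eval₂_mul, eval₂_C]
    have h2 : eval₂ (algebraMap K (Cyc d)) v (reflect d.1.natDegree d.1) * rt d ^ d.1.natDegree = AdjoinRoot.mk _ d.1 := by
      have h3 : (reflect d.1.natDegree d.1).natDegree ≤ d.1.natDegree := by
        rw [natDegree_le_iff_coeff_eq_zero]
        intro i hi
        rw [coeff_reflect, revAt_eq_self_of_lt hi, coeff_eq_zero_of_natDegree_lt hi]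
      have := aeval_inv (K := K) hvr (reflect d.1.natDegree d.1) d.1.natDegree h3
      rw [reflect_reflect, AdjoinRoot.aeval_eq] at this
      exact this
    have h4 : (AdjoinRoot.mk (d.1 ^ d.2) d.1) ^ d.2 = 0 := by rw [← map_pow, AdjoinRoot.mk_self]
    rw [← h2, mul_pow] at h4
    have h5 : IsUnit ((rt d ^ d.1.natDegree) ^ d.2) := ((rt_unit h0).pow _).pow _
    rw [h5.mul_left_eq_zero] at h4
    rw [mul_pow, h4, mul_zero]
  refine ⟨AdjoinRoot.lift ((algebraMap K (Cyc d)).comp σ) v hz, ?_, ?_⟩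
  · rw [AdjoinRoot.lift_root, hvr]
  · intro c
    exact AdjoinRoot.lift_of hz

theorem hom_unique {d : K[X] × ℕ} {R : Type*} [CommRing R] (f g : Cyc d →+* R) (h1 : f (rt d) = g (rt d))
    (h2 : ∀ c : K, f (algebraMap K _ c) = g (algebraMap K _ c)) (x : Cyc d) : f x = g x := by
  obtain ⟨p, rfl⟩ := AdjoinRoot.mk_surjective x
  have key : ∀ h : Cyc d →+* R, h (AdjoinRoot.mk _ p) = eval₂ (h.comp (algebraMap K _)) (h (rt d)) p := by
    intro h
    rw [← AdjoinRoot.aeval_eq, aeval_def, hom_eval₂]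
  rw [key f, key g, h1]
  congr 1
  exact RingHom.ext h2

theorem inv_unique {R : Type*} [CommRing R] {a b r : R} (ha : a * r = 1) (hb : b * r = 1) : a = b := by
  calc a = a * (b * r) := by rw [hb, mul_one]
    _ = b * (a * r) := by ring
    _ = b := by rw [ha, mul_one]

/-- `φ` and `φ'` are mutually inverse -/
theorem phi_phi (hσ : ∀ x, σ (σ x) = x) {d e : K[X] × ℕ} (φ : Cyc e →+* Cyc d) (φ' : Cyc d →+* Cyc e)
    (h1 : φ (rt _) * rt _ = 1) (h2 : ∀ c, φ (algebraMap K _ c) = algebraMap K _ (σ c))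
    (h1' : φ' (rt _) * rt _ = 1) (h2' : ∀ c, φ' (algebraMap K _ c) = algebraMap K _ (σ c)) (x : Cyc d) : φ (φ' x) = x := by
  apply hom_unique (φ.comp φ') (RingHom.id _)
  · rw [RingHom.comp_apply, RingHom.id_apply]
    have h3 := congrArg φ h1'
    rw [map_mul, map_one] at h3
    refine inv_unique (r := φ (rt e)) h3 ?_
    rw [mul_comm]
    exact h1
  · intro c
    rw [RingHom.comp_apply, RingHom.id_apply, h2', h2, hσ]

theorem exists_phi' (hσ : ∀ x, σ (σ x) = x) {d e : K[X] × ℕ} (hd : Good d) (h0 : d.1.coeff 0 ≠ 0) (he : e = (ps σ d.1, d.2)) :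
    ∃ φ : Cyc e →+* Cyc d, φ (rt _) * rt d = 1 ∧ ∀ c, φ (algebraMap K _ c) = algebraMap K _ (σ c) := by
  subst he
  exact exists_phi hσ hd h0

/-- top coefficient on a cyclic module -/
noncomputable def tcd {d : K[X] × ℕ} (hd : Good d) : Cyc d →ₗ[K] K := topCoeff (d.1 ^ d.2) (hd.1.pow _)

theorem tcd_nondeg {d : K[X] × ℕ} (hd : Good d) (a : Cyc d) (h : ∀ b, tcd hd (a * b) = 0) : a = 0 := topCoeff_nondeg _ (hd.1.pow _) a h

theorem phi_smul {d e : K[X] × ℕ} {φ : Cyc e →+* Cyc d} (h2 : ∀ c, φ (algebraMap K _ c) = algebraMap K _ (σ c)) (c : K) (x : Cyc e) :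
    φ (c • x) = σ c • φ x := by
  rw [Algebra.smul_def, map_mul, h2, Algebra.smul_def]

theorem HReal_pair (hσ : ∀ x, σ (σ x) = x) {d e : K[X] × ℕ} (hd : Good d) (h0 : d.1.coeff 0 ≠ 0) (he : e = (ps σ d.1, d.2)) :
    HReal σ ({d} + {e}) := by
  have hne := hd.2.1.ne_zero
  have hde : Good e := by rw [he]; exact ⟨ps_monic hne, ps_irreducible hσ hd.2.1, hd.2.2⟩
  have h0e : e.1.coeff 0 ≠ 0 := by rw [he]; exact ps_coeff_zero hne h0
  have hed : d = (ps σ e.1, e.2) := by rw [he]; exact Prod.ext (ps_ps hσ hd.1 h0).symm rfl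
  obtain ⟨φ, h1, h2⟩ := exists_phi' hσ hd h0 he
  obtain ⟨φ', h1', h2'⟩ := exists_phi' hσ hde h0e hed
  have hφφ := phi_phi hσ φ φ' h1 h2 h1' h2'
  have hφφ' := phi_phi hσ φ' φ h1' h2' h1 h2
  refine ⟨Cyc d × Cyc e, inferInstance, inferInstance, fun x y => tcd hd (x.1 * φ y.2) + σ (tcd hd (y.1 * φ x.2)),
    LinearMap.prodMap (LinearMap.mulLeft K (rt d)) (LinearMap.mulLeft K (rt e)), ⟨?_, ?_, ?_, ?_⟩, ?_, (hasType_cyc d hd).prod (hasType_cyc e hde)⟩
  · intro x y z
    rw [Prod.fst_add, Prod.snd_add, add_mul, map_add, map_add φ, mul_add, map_add, map_add]; ring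
  · intro c x y
    rw [Prod.smul_fst, Prod.smul_snd, smul_mul_assoc, map_smul, phi_smul h2, mul_smul_comm, map_smul, smul_eq_mul, smul_eq_mul, map_mul σ, hσ]; ring
  · intro x y
    rw [map_add, hσ]; ring
  · intro x hx
    apply Prod.ext
    · apply tcd_nondeg hd
      intro b
      have := hx (0, φ' b)
      simp only [hφφ, zero_mul, map_zero, add_zero] at this
      exact this
    · have h3 : φ x.2 = 0 := by
        apply tcd_nondeg hd
        intro b
        have := hx (b, 0)
        simp only [map_zero, mul_zero, zero_add] at this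
        rw [mul_comm]
        exact (map_eq_zero σ).mp this
      have h4 := congrArg φ' h3
      rw [hφφ', map_zero] at h4
      exact h4
  · intro x y
    show tcd hd ((rt d * x.1) * φ (rt e * y.2)) + σ (tcd hd ((rt d * y.1) * φ (rt e * x.2))) = _
    have h3 : ∀ (a : Cyc d) (b : Cyc e), (rt d * a) * φ (rt e * b) = a * φ b := by
      intro a b
      rw [map_mul]
      calc (rt d * a) * (φ (rt e) * φ b) = (φ (rt e) * rt d) * (a * φ b) := by ring
        _ = a * φ b := by rw [h1, one_mul]
    rw [h3, h3]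

/-- in a cyclic module a non-unit is nilpotent -/
theorem unit_or_nilpotent {d : K[X] × ℕ} (hd : Good d) (a : Cyc d) : IsUnit a ∨ IsNilpotent a := by
  obtain ⟨g, rfl⟩ := AdjoinRoot.mk_surjective a
  by_cases h : d.1 ∣ g
  · right
    refine ⟨d.2, ?_⟩
    rw [← map_pow, AdjoinRoot.mk_eq_zero]
    exact pow_dvd_pow_of_dvd h _
  · left
    have h1 : IsCoprime g (d.1 ^ d.2) := ((hd.2.1.coprime_iff_not_dvd.mpr h).symm).pow_right
    obtain ⟨x, y, hxy⟩ := h1
    have h2 := congrArg (AdjoinRoot.mk (d.1 ^ d.2)) hxy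
    rw [map_add, map_mul, map_mul, AdjoinRoot.mk_self, mul_zero, add_zero, map_one] at h2
    exact isUnit_iff_exists_inv'.mpr ⟨_, h2⟩

/-- every functional is `tc (t ·)` -/
theorem exists_rep {d : K[X] × ℕ} (hd : Good d) (ℓ : Cyc d →ₗ[K] K) : ∃ t : Cyc d, ∀ a, ℓ a = tcd hd (t * a) := by
  have hfin := hd.finite
  let T : Cyc d →ₗ[K] Module.Dual K (Cyc d) := LinearMap.mk₂ K (fun x y => tcd hd (x * y))
    (by intro x x' y; rw [add_mul, map_add])
    (by intro c x y; rw [smul_mul_assoc, map_smul])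
    (by intro x y y'; rw [mul_add, map_add])
    (by intro c x y; rw [mul_smul_comm, map_smul])
  have hT : ∀ x y, T x y = tcd hd (x * y) := fun _ _ => rfl
  have hinj : Function.Injective T := by
    rw [injective_iff_map_eq_zero]
    intro x hx
    apply tcd_nondeg hd
    intro b
    rw [← hT, hx, LinearMap.zero_apply]
  have hsurj : Function.Surjective T := by
    rw [← LinearMap.injective_iff_surjective_of_finrank_eq_finrank]
    · exact hinj
    · rw [Subspace.dual_finrank_eq]
  obtain ⟨t, ht⟩ := hsurj ℓ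
  exact ⟨t, fun a => by rw [← ht, hT]⟩

theorem HReal_single (hσ : ∀ x, σ (σ x) = x) {ω : K} (hω : σ ω ≠ ω) {d : K[X] × ℕ} (hd : Good d) (h0 : d.1.coeff 0 ≠ 0) (he : d = (ps σ d.1, d.2)) :
    HReal σ {d} := by
  obtain ⟨φ, h1, h2⟩ := exists_phi' hσ hd h0 he
  have hφφ := phi_phi hσ φ φ h1 h2 h1 h2
  -- the functional `a ↦ σ (tc (φ a))`
  let ℓ : Cyc d →ₗ[K] K :=
    { toFun := fun a => σ (tcd hd (φ a))
      map_add' := fun a b => by rw [map_add, map_add, map_add]
      map_smul' := fun c a => by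
        rw [phi_smul h2, map_smul, smul_eq_mul, map_mul, hσ]; rfl }
  obtain ⟨t, ht⟩ := exists_rep hd ℓ
  have ht' : ∀ a, σ (tcd hd (φ a)) = tcd hd (t * a) := ht
  obtain ⟨x, hx⟩ : ∃ x : K, IsUnit (algebraMap K (Cyc d) x + algebraMap K _ (σ x) * t) := by
    rcases unit_or_nilpotent hd (1 + t) with h | h
    · refine ⟨1, ?_⟩
      rwa [map_one, map_one, map_one, one_mul]
    · refine ⟨ω, ?_⟩
      have h3 : algebraMap K (Cyc d) ω + algebraMap K _ (σ ω) * t = algebraMap K (Cyc d) (ω - σ ω) + algebraMap K _ (σ ω) * (1 + t) := by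
        rw [map_sub]; ring
      rw [h3]
      have h4 : IsUnit (algebraMap K (Cyc d) (ω - σ ω)) := (IsUnit.mk0 _ (sub_ne_zero.mpr hω.symm)).map _
      have h5 : IsNilpotent (algebraMap K (Cyc d) (σ ω) * (1 + t)) := (Commute.all _ _).isNilpotent_mul_left h
      exact h5.isUnit_add_left_of_commute h4 (Commute.all _ _)
  -- the functional `λ`
  let lam : Cyc d → K := fun a => x * tcd hd a + σ (x * tcd hd (φ a))
  have hlam : ∀ a, lam a = x * tcd hd a + σ (x * tcd hd (φ a)) := fun _ => rfl
  have hlam2 : ∀ a, lam a = tcd hd ((algebraMap K (Cyc d) x + algebraMap K _ (σ x) * t) * a) := by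
    intro a
    rw [hlam, map_mul σ, ht', add_mul, map_add, ← Algebra.smul_def, map_smul, mul_assoc, ← Algebra.smul_def, map_smul]
    rfl
  have hlamσ : ∀ a, lam (φ a) = σ (lam a) := by
    intro a
    rw [hlam, hlam, hφφ, map_add, hσ]; ring
  refine ⟨Cyc d, inferInstance, inferInstance, fun a b => lam (a * φ b), LinearMap.mulLeft K (rt d), ⟨?_, ?_, ?_, ?_⟩, ?_, hasType_cyc d hd⟩
  · intro a b c
    rw [hlam2, hlam2, hlam2, ← map_add]
    congr 1
    ring
  · intro c a b
    rw [hlam2, hlam2, smul_mul_assoc, mul_smul_comm, map_smul]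
    rfl
  · intro a b
    rw [one_mul, ← hlamσ, map_mul, hφφ, mul_comm]
  · intro a ha
    have h3 : (algebraMap K (Cyc d) x + algebraMap K _ (σ x) * t) * a = 0 := by
      apply tcd_nondeg hd
      intro b
      have := ha (φ b)
      simp only [hlam2, hφφ] at this
      rw [mul_assoc]
      exact this
    rwa [hx.mul_right_eq_zero] at h3
  · intro a b
    show lam ((rt d * a) * φ (rt d * b)) = lam (a * φ b)
    congr 1
    rw [map_mul]
    calc (rt d * a) * (φ (rt d) * φ b) = (φ (rt d) * rt d) * (a * φ b) := by ring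
      _ = a * φ b := by rw [h1, one_mul]

/-- Every conjugate-self-reciprocal type is realised. -/
theorem HReal_of_symm [DecidableEq (K[X] × ℕ)] (hσ : ∀ x, σ (σ x) = x) {ω : K} (hω : σ ω ≠ ω) (s : Multiset (K[X] × ℕ)) (hs : ∀ d ∈ s, Good d ∧ d.1.coeff 0 ≠ 0)
    (hc : ∀ (p : K[X]) (k : ℕ), p.Monic → Irreducible p → p.coeff 0 ≠ 0 → s.count (p, k) = s.count (ps σ p, k)) : HReal σ s := by
  induction h : Multiset.card s using Nat.strong_induction_on generalizing s with
  | _ n ih =>
    rcases Multiset.empty_or_exists_mem s with rfl | ⟨d, hd⟩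
    · exact HReal_zero
    · obtain ⟨hg, h0⟩ := hs d hd
      set e : K[X] × ℕ := (ps σ d.1, d.2) with he
      -- injectivity of the star
      have hinj : ∀ (p : K[X]) (k : ℕ), p.Monic → p.coeff 0 ≠ 0 → ((p, k) = d ↔ (ps σ p, k) = e) := by
        intro p k hp hp0
        constructor
        · intro h; rw [he, ← h]
        · intro h
          have h1 : ps σ p = ps σ d.1 := congrArg Prod.fst h
          have h2 : k = d.2 := congrArg Prod.snd h
          have h3 := congrArg (ps σ) h1
          rw [ps_ps hσ hp hp0, ps_ps hσ hg.1 h0] at h3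
          exact Prod.ext h3 h2
      have hinj' : ∀ (p : K[X]) (k : ℕ), p.Monic → p.coeff 0 ≠ 0 → ((p, k) = e ↔ (ps σ p, k) = d) := by
        intro p k hp hp0
        constructor
        · intro h
          have h1 : p = ps σ d.1 := congrArg Prod.fst h
          have h2 : k = d.2 := congrArg Prod.snd h
          rw [h1, ps_ps hσ hg.1 h0, h2]
        · intro h
          have h1 : ps σ p = d.1 := congrArg Prod.fst h
          have h2 : k = d.2 := congrArg Prod.snd h
          rw [he, ← h1, ps_ps hσ hp hp0, h2]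
      obtain ⟨s₁, rfl⟩ := Multiset.exists_cons_of_mem hd
      by_cases hde : e = d
      · have hc' : ∀ (p : K[X]) (k : ℕ), p.Monic → Irreducible p → p.coeff 0 ≠ 0 → s₁.count (p, k) = s₁.count (ps σ p, k) := by
          intro p k hp hpi hp0
          have h1 := hc p k hp hpi hp0
          rw [Multiset.count_cons, Multiset.count_cons] at h1
          have h2 := hinj p k hp hp0
          rw [hde] at h2
          by_cases h3 : (p, k) = d
          · rw [if_pos h3, if_pos (h2.mp h3)] at h1
            omega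
          · rw [if_neg h3, if_neg (fun h => h3 (h2.mpr h))] at h1
            omega
        have h4 := ih (Multiset.card s₁) (by rw [← h, Multiset.card_cons]; omega) s₁ (fun x hx => hs x (Multiset.mem_cons_of_mem hx)) hc' rfl
        have h5 := HReal_single hσ hω hg h0 hde.symm
        exact HReal_add h5 h4
      · have h1 : 0 < (d ::ₘ s₁).count e := by
          rw [he, ← hc d.1 d.2 hg.1 hg.2.1 h0]
          exact Multiset.count_pos.mpr hd
        have h2 : e ∈ s₁ := by
          rcases Multiset.mem_cons.mp (Multiset.count_pos.mp h1) with h | h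
          · exact absurd h hde
          · exact h
        obtain ⟨s₂, rfl⟩ := Multiset.exists_cons_of_mem h2
        have hc' : ∀ (p : K[X]) (k : ℕ), p.Monic → Irreducible p → p.coeff 0 ≠ 0 → s₂.count (p, k) = s₂.count (ps σ p, k) := by
          intro p k hp hpi hp0
          have h1 := hc p k hp hpi hp0
          rw [Multiset.count_cons, Multiset.count_cons, Multiset.count_cons, Multiset.count_cons] at h1
          have h2 := hinj p k hp hp0
          have h3 := hinj' p k hp hp0
          by_cases h4 : (p, k) = d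
          · have h5 : (p, k) ≠ e := fun h => hde (h.symm.trans h4)
            have h6 : (ps σ p, k) ≠ d := fun h => h5 (h3.mpr h)
            rw [if_pos h4, if_neg h5, if_neg h6, if_pos (h2.mp h4)] at h1
            omega
          · by_cases h5 : (p, k) = e
            · have h6 : (ps σ p, k) ≠ e := fun h => h4 (h2.mpr h)
              rw [if_neg h4, if_pos h5, if_pos (h3.mp h5), if_neg h6] at h1
              omega
            · rw [if_neg h4, if_neg h5, if_neg (fun h => h5 (h3.mpr h)), if_neg (fun h => h4 (h2.mpr h))] at h1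
              omega
        have h4 := ih (Multiset.card s₂) (by rw [← h, Multiset.card_cons, Multiset.card_cons]; omega) s₂
          (fun x hx => hs x (Multiset.mem_cons_of_mem (Multiset.mem_cons_of_mem hx))) hc' rfl
        have h5 := HReal_add (HReal_pair hσ hg h0 he) h4
        have h6 : ({d} + {e} + s₂ : Multiset (K[X] × ℕ)) = d ::ₘ e ::ₘ s₂ := by
          rw [add_assoc]; rfl
        rw [h6] at h5
        exact h5

end Cfsg.Agent.Lib.HermType2
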