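import Mathlib
import Cfsg.Prelude.Def_LieClassical

set_option autoImplicit false

/-! The conjugate-transpose on matrices over a field with `q²` elements, and `Cfsg.GU` (helper43). -/

namespace Cfsg.Agent.Lib.UnitStar

variable {K : Type*} [Field K]

/-- `x ↦ x ^ q` is an involutive ring endomorphism of a field with `q²` elements. -/
theorem exists_conj [Fintype K] {q : ℕ} (hK : Fintype.card K = q ^ 2) :
    ∃ φ : K →+* K, (∀ x, φ x = x ^ q) ∧ (∀ x, φ (φ x) = x) ∧ ∃ ω : K, φ ω ≠ ω := by
  classical
  obtain ⟨p, hp⟩ := CharP.exists K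
  obtain ⟨n, hprime, hcard⟩ := FiniteField.card K p
  have : Fact p.Prime := ⟨hprime⟩
  have hdvd : q ∣ p ^ (n : ℕ) := ⟨q, by rw [← hcard, hK, sq]⟩
  obtain ⟨f, -, hf⟩ := (Nat.dvd_prime_pow hprime).mp hdvd
  refine ⟨iterateFrobenius K p f, ?_, ?_, ?_⟩
  · intro x
    rw [iterateFrobenius_def, hf]
  · intro x
    rw [iterateFrobenius_def, iterateFrobenius_def, ← hf, ← pow_mul, ← sq, ← hK, FiniteField.pow_card]
  · by_contra hcon
    push Not at hcon
    have hq0 : q ≠ 0 := by
      rintro rfl
      rw [zero_pow (by norm_num)] at hK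
      exact Fintype.card_ne_zero hK
    have hq1 : 1 < q := by
      rcases Nat.lt_or_ge 1 q with h | h
      · exact h
      · have : q = 1 := by omega
        rw [this, one_pow] at hK
        have h2 := Fintype.one_lt_card (α := K)
        omega
    have hroots : ∀ x : K, x ∈ (Polynomial.X ^ q - Polynomial.X : Polynomial K).roots := by
      intro x
      rw [Polynomial.mem_roots (FiniteField.X_pow_card_sub_X_ne_zero K hq1)]
      simp only [Polynomial.IsRoot.def, Polynomial.eval_sub, Polynomial.eval_pow, Polynomial.eval_X]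
      have := hcon x
      rw [iterateFrobenius_def, ← hf] at this
      rw [this, sub_self]
    have h1 : Fintype.card K ≤ q := by
      calc Fintype.card K = (Finset.univ : Finset K).card := rfl
        _ ≤ (Polynomial.X ^ q - Polynomial.X : Polynomial K).roots.toFinset.card := by
            apply Finset.card_le_card
            intro x _
            rw [Multiset.mem_toFinset]
            exact hroots x
        _ ≤ Multiset.card (Polynomial.X ^ q - Polynomial.X : Polynomial K).roots := Multiset.toFinset_card_le _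
        _ ≤ (Polynomial.X ^ q - Polynomial.X : Polynomial K).natDegree := Polynomial.card_roots' _
        _ = q := FiniteField.X_pow_card_sub_X_natDegree_eq K hq1
    rw [hK, sq] at h1
    nlinarith

/-- conjugate transpose -/
def st {n : ℕ} (φ : K →+* K) (A : Matrix (Fin n) (Fin n) K) : Matrix (Fin n) (Fin n) K := (A.map φ).transpose

variable {n : ℕ} (φ : K →+* K)

theorem st_add (A B : Matrix (Fin n) (Fin n) K) : st φ (A + B) = st φ A + st φ B := by
  ext i j; simp [st]

theorem st_mul (A B : Matrix (Fin n) (Fin n) K) : st φ (A * B) = st φ B * st φ A := by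
  simp [st, Matrix.map_mul, Matrix.transpose_mul]

theorem st_one : st φ (1 : Matrix (Fin n) (Fin n) K) = 1 := by
  simp [st, Matrix.map_one φ (map_zero φ) (map_one φ)]

theorem st_st (hφ : ∀ x, φ (φ x) = x) (A : Matrix (Fin n) (Fin n) K) : st φ (st φ A) = A := by
  ext i j; simp [st, hφ]

theorem st_algebraMap (c : K) : st φ (algebraMap K (Matrix (Fin n) (Fin n) K) c) = algebraMap K (Matrix (Fin n) (Fin n) K) (φ c) := by
  ext i j
  simp only [st, Matrix.algebraMap_eq_diagonal, Matrix.transpose_apply, Matrix.map_apply, Matrix.diagonal_apply]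
  by_cases h : i = j
  · subst h; simp
  · simp [h, Ne.symm h]

/-- Membership in `GU`: `A* A = 1`. -/
theorem mem_GU_iff {q : ℕ} (hφq : ∀ x, φ x = x ^ q) (A : Matrix.GeneralLinearGroup (Fin n) K) :
    A ∈ Cfsg.GU n K q ↔ st φ (A : Matrix (Fin n) (Fin n) K) * (A : Matrix (Fin n) (Fin n) K) = 1 := by
  have hform : ∀ u v : Fin n → K, Cfsg.hermForm n K q u v = ∑ i, u i * φ (v i) := by
    intro u v
    simp only [Cfsg.hermForm, hφq]
  have hpres : A ∈ Cfsg.GU n K q ↔ ∀ u v : Fin n → K,
      Cfsg.hermForm n K q ((A : Matrix (Fin n) (Fin n) K).mulVec u) ((A : Matrix (Fin n) (Fin n) K).mulVec v) = Cfsg.hermForm n K q u v := Iff.rfl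
  -- the form as a dot product
  have hdot : ∀ u v : Fin n → K, Cfsg.hermForm n K q u v = dotProduct (fun i => φ (v i)) u := by
    intro u v
    rw [hform]
    simp only [dotProduct]
    apply Finset.sum_congr rfl
    intro i _
    ring
  have hmap : ∀ v : Fin n → K, (fun i => φ ((A : Matrix (Fin n) (Fin n) K).mulVec v i)) = ((A : Matrix (Fin n) (Fin n) K).map φ).mulVec (fun i => φ (v i)) := by
    intro v
    funext i
    simp only [Matrix.mulVec, dotProduct, map_sum, map_mul, Matrix.map_apply]
  have hmain : ∀ u v : Fin n → K, Cfsg.hermForm n K q ((A : Matrix (Fin n) (Fin n) K).mulVec u) ((A : Matrix (Fin n) (Fin n) K).mulVec v) =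
      dotProduct (fun i => φ (v i)) ((st φ (A : Matrix (Fin n) (Fin n) K) * (A : Matrix (Fin n) (Fin n) K)).mulVec u) := by
    intro u v
    rw [hdot, hmap, st, ← Matrix.mulVec_mulVec, Matrix.dotProduct_mulVec _ (((A : Matrix (Fin n) (Fin n) K).map φ).transpose), Matrix.vecMul_transpose]
  rw [hpres]
  constructor
  · intro h
    apply Matrix.ext
    intro i j
    have h1 := h (Pi.single j 1) (Pi.single i 1)
    rw [hmain, hdot] at h1
    have h2 : (fun k => φ ((Pi.single i 1 : Fin n → K) k)) = Pi.single i 1 := by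
      funext k
      by_cases hk : k = i
      · subst hk; simp
      · simp [Pi.single_eq_of_ne hk]
    rw [h2] at h1
    simpa [Matrix.one_apply, Pi.single_apply, eq_comm] using h1
  · intro h u v
    rw [hmain, h, Matrix.one_mulVec, hdot]

end Cfsg.Agent.Lib.UnitStar
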