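import Cfsg.Agent.S2587
import Cfsg.Agent.S2588
import Cfsg.Agent.Lib.GLDet

set_option autoImplicit false
set_option linter.unusedSectionVars false

/-! Symmetric types are realised by unitary matrices whose centralizers in the unitary group have large determinants
(helper96). -/

open Cfsg

namespace Cfsg.Agent.Lib.GUType

open Module Polynomial Cfsg.Agent.Lib.FXMod Cfsg.Agent.Lib.FXType Cfsg.Agent.Lib.GLClass Cfsg.Agent.Lib.PolyStar Cfsg.Agent.Lib.HermAlg
  Cfsg.Agent.Lib.HermType Cfsg.Agent.Lib.HermType2 Cfsg.Agent.Lib.GLDet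

universe u

variable {K : Type u} [Field K] {σ : K →+* K}

/-- symmetric types -/
def SymT (σ : K →+* K) (s : Multiset (K[X] × ℕ)) : Prop := s.map (fun d => (ps σ d.1, d.2)) = s

theorem symm_induction (hσ : ∀ x, σ (σ x) = x) {P : Multiset (K[X] × ℕ) → Prop} (p0 : P 0)
    (hadd : ∀ s t, P s → P t → P (s + t))
    (hsingle : ∀ d : K[X] × ℕ, Good d → d.1.coeff 0 ≠ 0 → d = (ps σ d.1, d.2) → P {d})
    (hpair : ∀ d e : K[X] × ℕ, Good d → d.1.coeff 0 ≠ 0 → e = (ps σ d.1, d.2) → P ({d} + {e}))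
    (s : Multiset (K[X] × ℕ)) (hs : ∀ d ∈ s, Good d ∧ d.1.coeff 0 ≠ 0) (hc : SymT σ s) : P s := by
  classical
  induction h : Multiset.card s using Nat.strong_induction_on generalizing s with
  | _ n ih =>
    rcases Multiset.empty_or_exists_mem s with rfl | ⟨d, hd⟩
    · exact p0
    · obtain ⟨hg, h0⟩ := hs d hd
      have hstd : (ps σ d.1, d.2) ∈ s := by
        rw [← hc]
        exact Multiset.mem_map_of_mem (fun d : K[X] × ℕ => (ps σ d.1, d.2)) hd
      have hss : (ps σ (ps σ d.1), d.2) = d := by rw [ps_ps hσ hg.1 h0]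
      obtain ⟨s₁, rfl⟩ := Multiset.exists_cons_of_mem hd
      by_cases hde : (ps σ d.1, d.2) = d
      · have hc' : SymT σ s₁ := by
          unfold SymT at hc ⊢
          rw [Multiset.map_cons, hde] at hc
          exact (Multiset.cons_inj_right d).mp hc
        have h4 := ih (Multiset.card s₁) (by rw [← h, Multiset.card_cons]; omega) s₁ (fun x hx => hs x (Multiset.mem_cons_of_mem hx)) hc' rfl
        have h5 := hadd _ _ (hsingle d hg h0 hde.symm) h4
        rwa [Multiset.singleton_add] at h5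
      · have h2 : (ps σ d.1, d.2) ∈ s₁ := by
          rcases Multiset.mem_cons.mp hstd with h | h
          · exact absurd h hde
          · exact h
        obtain ⟨s₂, rfl⟩ := Multiset.exists_cons_of_mem h2
        have hc' : SymT σ s₂ := by
          unfold SymT at hc ⊢
          rw [Multiset.map_cons, Multiset.map_cons, Multiset.cons_swap] at hc
          have h6 : (ps σ (ps σ d.1), d.2) = d := hss
          rw [h6] at hc
          exact (Multiset.cons_inj_right _).mp ((Multiset.cons_inj_right d).mp hc)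
        have h4 := ih (Multiset.card s₂) (by rw [← h, Multiset.card_cons, Multiset.card_cons]; omega) s₂
          (fun x hx => hs x (Multiset.mem_cons_of_mem (Multiset.mem_cons_of_mem hx))) hc' rfl
        have h5 := hadd _ _ (hpair d _ hg h0 rfl) h4
        rw [add_assoc] at h5
        exact h5

/-- realised by a hermitian isometry with large centralizer -/
def HRealD (σ : K →+* K) (s : Multiset (K[X] × ℕ)) : Prop :=
  ∃ (V : Type u) (_ : AddCommGroup V) (_ : Module K V) (h : V → V → K) (f : Module.End K V),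
    IsHerm σ 1 h ∧ (∀ x y, h (f x) (f y) = h x y) ∧ HasType f s ∧
    ∀ d ∈ s, ∀ b : Kˣ, ∃ z z' : Module.End K V, z * f = f * z ∧ z * z' = z' * z ∧ (∀ x y, h (z x) y = h x (z' y)) ∧
      LinearMap.det z = (b : K) ^ d.2

theorem HRealD_zero : HRealD σ 0 := by
  refine ⟨PUnit, inferInstance, inferInstance, fun _ _ => 0, 1, ⟨?_, ?_, ?_, ?_⟩, fun _ _ => rfl, ?_, ?_⟩
  · intro _ _ _; rw [add_zero]
  · intro _ _ _; rw [mul_zero]
  · intro _ _; rw [map_zero, mul_zero]
  · intro _ _; rfl
  · exact hasType_zero _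
  · intro d hd
    exact absurd hd (Multiset.notMem_zero d)

theorem HRealD_add {m m' : Multiset (K[X] × ℕ)} (h : HRealD σ m) (h' : HRealD σ m') : HRealD σ (m + m') := by
  obtain ⟨V, _, _, B, f, h1, h2, h3, h4⟩ := h
  obtain ⟨V', _, _, B', f', h1', h2', h3', h4'⟩ := h'
  have := h3.finiteDimensional
  have := h3'.finiteDimensional
  refine ⟨V × V', inferInstance, inferInstance, fun x y => B x.1 y.1 + B' x.2 y.2, LinearMap.prodMap f f', ⟨?_, ?_, ?_, ?_⟩, ?_, h3.prod h3', ?_⟩
  · intro x y z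
    rw [Prod.fst_add, Prod.snd_add, h1.add_left, h1'.add_left]; ring
  · intro c x y
    rw [Prod.smul_fst, Prod.smul_snd, h1.smul_left, h1'.smul_left]; ring
  · intro x y
    rw [h1.symm, h1'.symm, map_add]; ring
  · intro x hx
    apply Prod.ext
    · apply h1.nondeg
      intro y
      have := hx (y, 0)
      simp only [h1'.zero_right, add_zero] at this
      exact this
    · apply h1'.nondeg
      intro y
      have := hx (0, y)
      simp only [h1.zero_right, zero_add] at this
      exact this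
  · intro x y
    show B (f x.1) (f y.1) + B' (f' x.2) (f' y.2) = _
    rw [h2, h2']
  · intro d hd b
    rcases Multiset.mem_add.mp hd with hd | hd
    · obtain ⟨z, z', e1, e2, e3, e4⟩ := h4 d hd b
      refine ⟨LinearMap.prodMap z 1, LinearMap.prodMap z' 1, ?_, ?_, ?_, ?_⟩
      · exact LinearMap.ext fun y => Prod.ext (LinearMap.congr_fun e1 y.1) rfl
      · exact LinearMap.ext fun y => Prod.ext (LinearMap.congr_fun e2 y.1) rfl
      · intro x y
        show B (z x.1) y.1 + B' x.2 y.2 = B x.1 (z' y.1) + B' x.2 y.2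
        rw [e3]
      · rw [LinearMap.det_prodMap, e4, map_one, mul_one]
    · obtain ⟨z, z', e1, e2, e3, e4⟩ := h4' d hd b
      refine ⟨LinearMap.prodMap 1 z, LinearMap.prodMap 1 z', ?_, ?_, ?_, ?_⟩
      · exact LinearMap.ext fun y => Prod.ext rfl (LinearMap.congr_fun e1 y.2)
      · exact LinearMap.ext fun y => Prod.ext rfl (LinearMap.congr_fun e2 y.2)
      · intro x y
        show B x.1 y.1 + B' (z x.2) y.2 = B x.1 y.1 + B' x.2 (z' y.2)
        rw [e3]
      · rw [LinearMap.det_prodMap, e4, map_one, one_mul]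

/-- elements of a cyclic module with given determinant -/
theorem exists_det [Finite K] {d : K[X] × ℕ} (hd : Good d) (b : Kˣ) :
    ∃ a : Cyc d, LinearMap.det (LinearMap.mulLeft K a) = (b : K) ^ d.2 := by
  have : Fact (Irreducible d.1) := ⟨hd.2.1⟩
  have hfin1 := finite_adjoinRoot d.1 hd.2.1.ne_zero
  have : Finite (AdjoinRoot d.1) := Module.finite_of_finite K
  obtain ⟨u, hu⟩ := FiniteField.norm_surjective K (AdjoinRoot d.1) (b : K)
  obtain ⟨h0, rfl⟩ := AdjoinRoot.mk_surjective u
  have hNm : Nm d.1 h0 = b := hu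
  refine ⟨AdjoinRoot.mk (d.1 ^ d.2) h0, ?_⟩
  change Nm _ _ = _
  rw [Nm_pow hd.2.1.ne_zero, hNm]

theorem HRealD_pair [Finite K] (hσ : ∀ x, σ (σ x) = x) {d e : K[X] × ℕ} (hd : Good d) (h0 : d.1.coeff 0 ≠ 0) (he : e = (ps σ d.1, d.2)) :
    HRealD σ ({d} + {e}) := by
  have hne := hd.2.1.ne_zero
  have hde : Good e := by rw [he]; exact ⟨ps_monic hne, ps_irreducible hσ hd.2.1, hd.2.2⟩
  have h0e : e.1.coeff 0 ≠ 0 := by rw [he]; exact ps_coeff_zero hne h0
  have hed : d = (ps σ e.1, e.2) := by rw [he]; exact Prod.ext (ps_ps hσ hd.1 h0).symm rfl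
  have hfd := hd.finite
  have hfe := hde.finite
  obtain ⟨φ, h1, h2⟩ := exists_phi' hσ hd h0 he
  obtain ⟨φ', h1', h2'⟩ := exists_phi' hσ hde h0e hed
  have hφφ := phi_phi hσ φ φ' h1 h2 h1' h2'
  have hφφ' := phi_phi hσ φ' φ h1' h2' h1 h2
  refine ⟨Cyc d × Cyc e, inferInstance, inferInstance, fun x y => tcd hd (x.1 * φ y.2) + σ (tcd hd (y.1 * φ x.2)),
    LinearMap.prodMap (LinearMap.mulLeft K (rt d)) (LinearMap.mulLeft K (rt e)), ⟨?_, ?_, ?_, ?_⟩, ?_, (hasType_cyc d hd).prod (hasType_cyc e hde), ?_⟩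
  · intro x y z
    rw [Prod.fst_add, Prod.snd_add, add_mul, map_add, map_add φ, mul_add, map_add, map_add]; ring
  · intro c x y
    rw [Prod.smul_fst, Prod.smul_snd, smul_mul_assoc, map_smul, phi_smul h2, mul_smul_comm, map_smul, smul_eq_mul, smul_eq_mul, map_mul σ, hσ]; ring
  · intro x y
    rw [map_add, hσ]; ring
  · intro x hx
    apply Prod.ext
    · apply tcd_nondeg hd
      intro b
      have := hx (0, φ' b)
      simp only [hφφ, zero_mul, map_zero, add_zero] at this
      exact this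
    · have h3 : φ x.2 = 0 := by
        apply tcd_nondeg hd
        intro b
        have := hx (b, 0)
        simp only [map_zero, mul_zero, zero_add] at this
        rw [mul_comm]
        exact (map_eq_zero σ).mp this
      have h4 := congrArg φ' h3
      rw [hφφ', map_zero] at h4
      exact h4
  · intro x y
    show tcd hd ((rt d * x.1) * φ (rt e * y.2)) + σ (tcd hd ((rt d * y.1) * φ (rt e * x.2))) = _
    have h3 : ∀ (a : Cyc d) (b : Cyc e), (rt d * a) * φ (rt e * b) = a * φ b := by
      intro a b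
      rw [map_mul]
      calc (rt d * a) * (φ (rt e) * φ b) = (φ (rt e) * rt d) * (a * φ b) := by ring
        _ = a * φ b := by rw [h1, one_mul]
    rw [h3, h3]
  · intro x hx b
    have hx2 : x.2 = d.2 := by
      rcases Multiset.mem_add.mp hx with h | h
      · rw [Multiset.mem_singleton.mp h]
      · rw [Multiset.mem_singleton.mp h, he]
    rw [hx2]
    obtain ⟨a, ha⟩ := exists_det hd b
    refine ⟨LinearMap.prodMap (LinearMap.mulLeft K a) 1, LinearMap.prodMap 1 (LinearMap.mulLeft K (φ' a)), ?_, ?_, ?_, ?_⟩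
    · refine LinearMap.ext fun y => Prod.ext ?_ rfl
      show a * (rt d * y.1) = rt d * (a * y.1)
      ring
    · exact LinearMap.ext fun y => Prod.ext rfl rfl
    · intro x y
      show tcd hd (a * x.1 * φ y.2) + σ (tcd hd (y.1 * φ x.2)) = tcd hd (x.1 * φ (φ' a * y.2)) + σ (tcd hd (y.1 * φ x.2))
      rw [map_mul φ, hφφ]
      congr 2
      ring
    · rw [LinearMap.det_prodMap, ha, map_one, mul_one]

theorem HRealD_single [Finite K] (hσ : ∀ x, σ (σ x) = x) {ω : K} (hω : σ ω ≠ ω) {d : K[X] × ℕ} (hd : Good d) (h0 : d.1.coeff 0 ≠ 0) (he : d = (ps σ d.1, d.2)) :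
    HRealD σ {d} := by
  obtain ⟨φ, h1, h2⟩ := exists_phi' hσ hd h0 he
  have hφφ := phi_phi hσ φ φ h1 h2 h1 h2
  -- the functional `a ↦ σ (tc (φ a))`
  let ℓ : Cyc d →ₗ[K] K :=
    { toFun := fun a => σ (tcd hd (φ a))
      map_add' := fun a b => by rw [map_add, map_add, map_add]
      map_smul' := fun c a => by
        rw [phi_smul h2, map_smul, smul_eq_mul, map_mul, hσ]; rfl }
  obtain ⟨t, ht⟩ := exists_rep hd ℓ
  have ht' : ∀ a, σ (tcd hd (φ a)) = tcd hd (t * a) := ht
  obtain ⟨x, hx⟩ : ∃ x : K, IsUnit (algebraMap K (Cyc d) x + algebraMap K _ (σ x) * t) := by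
    rcases unit_or_nilpotent hd (1 + t) with h | h
    · refine ⟨1, ?_⟩
      rwa [map_one, map_one, map_one, one_mul]
    · refine ⟨ω, ?_⟩
      have h3 : algebraMap K (Cyc d) ω + algebraMap K _ (σ ω) * t = algebraMap K (Cyc d) (ω - σ ω) + algebraMap K _ (σ ω) * (1 + t) := by
        rw [map_sub]; ring
      rw [h3]
      have h4 : IsUnit (algebraMap K (Cyc d) (ω - σ ω)) := (IsUnit.mk0 _ (sub_ne_zero.mpr hω.symm)).map _
      have h5 : IsNilpotent (algebraMap K (Cyc d) (σ ω) * (1 + t)) := (Commute.all _ _).isNilpotent_mul_left h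
      exact h5.isUnit_add_left_of_commute h4 (Commute.all _ _)
  -- the functional `λ`
  let lam : Cyc d → K := fun a => x * tcd hd a + σ (x * tcd hd (φ a))
  have hlam : ∀ a, lam a = x * tcd hd a + σ (x * tcd hd (φ a)) := fun _ => rfl
  have hlam2 : ∀ a, lam a = tcd hd ((algebraMap K (Cyc d) x + algebraMap K _ (σ x) * t) * a) := by
    intro a
    rw [hlam, map_mul σ, ht', add_mul, map_add, ← Algebra.smul_def, map_smul, mul_assoc, ← Algebra.smul_def, map_smul]
    rfl
  have hlamσ : ∀ a, lam (φ a) = σ (lam a) := by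
    intro a
    rw [hlam, hlam, hφφ, map_add, hσ]; ring
  refine ⟨Cyc d, inferInstance, inferInstance, fun a b => lam (a * φ b), LinearMap.mulLeft K (rt d), ⟨?_, ?_, ?_, ?_⟩, ?_, hasType_cyc d hd, ?_⟩
  · intro a b c
    rw [hlam2, hlam2, hlam2, ← map_add]
    congr 1
    ring
  · intro c a b
    rw [hlam2, hlam2, smul_mul_assoc, mul_smul_comm, map_smul]
    rfl
  · intro a b
    rw [one_mul, ← hlamσ, map_mul, hφφ, mul_comm]
  · intro a ha
    have h3 : (algebraMap K (Cyc d) x + algebraMap K _ (σ x) * t) * a = 0 := by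
      apply tcd_nondeg hd
      intro b
      have := ha (φ b)
      simp only [hlam2, hφφ] at this
      rw [mul_assoc]
      exact this
    rwa [hx.mul_right_eq_zero] at h3
  · intro a b
    show lam ((rt d * a) * φ (rt d * b)) = lam (a * φ b)
    congr 1
    rw [map_mul]
    calc (rt d * a) * (φ (rt d) * φ b) = (φ (rt d) * rt d) * (a * φ b) := by ring
      _ = a * φ b := by rw [h1, one_mul]
  · intro x hx b
    rw [Multiset.mem_singleton.mp hx]
    obtain ⟨a, ha⟩ := exists_det hd b
    refine ⟨LinearMap.mulLeft K a, LinearMap.mulLeft K (φ a), ?_, ?_, ?_, ha⟩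
    · refine LinearMap.ext fun y => ?_
      show a * (rt d * y) = rt d * (a * y)
      ring
    · refine LinearMap.ext fun y => ?_
      show a * (φ a * y) = φ a * (a * y)
      ring
    · intro x y
      show lam (a * x * φ y) = lam (x * φ (φ a * y))
      rw [map_mul φ, hφφ]
      congr 1
      ring

theorem HRealD_of_symm [Finite K] (hσ : ∀ x, σ (σ x) = x) {ω : K} (hω : σ ω ≠ ω) (s : Multiset (K[X] × ℕ))
    (hs : ∀ d ∈ s, Good d ∧ d.1.coeff 0 ≠ 0) (hc : SymT σ s) : HRealD σ s :=
  symm_induction hσ HRealD_zero (fun _ _ => HRealD_add) (fun _ h1 h2 h3 => HRealD_single hσ hω h1 h2 h3)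
    (fun _ _ h1 h2 h3 => HRealD_pair hσ h1 h2 h3) s hs hc

end Cfsg.Agent.Lib.GUType
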