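import Cfsg.Agent.Lib.GLDet

/-! Class numbers of `SL_n(q)`: upper bounds (helper41). -/

set_option autoImplicit false

namespace Cfsg.Agent.Lib.SLCount

open Polynomial Cfsg.Agent.Lib.FXType Cfsg.Agent.Lib.GLClass Cfsg.Agent.Lib.GLCount Cfsg.Agent.Lib.GLDet Classical

universe u

variable {F : Type u} [Field F] {n : ℕ}

local notation "SL" => Matrix.SpecialLinearGroup (Fin n) F
local notation "GLn" => GL (Fin n) F

/-- a representative -/
noncomputable def rep {G : Type*} [Group G] (C : ConjClasses G) : G := (ConjClasses.exists_rep C).choose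

theorem mk_rep {G : Type*} [Group G] (C : ConjClasses G) : ConjClasses.mk (rep C) = C :=
  (ConjClasses.exists_rep C).choose_spec

/-- the type of an invertible matrix -/
noncomputable def ty (g : Matrix.SpecialLinearGroup (Fin n) F) : Multiset (F[X] × ℕ) :=
  (exists_mtype ((Matrix.SpecialLinearGroup.toGL g : GLn) : Matrix (Fin n) (Fin n) F)).choose

theorem ty_spec (g : SL) : MType ((Matrix.SpecialLinearGroup.toGL g : GLn) : Matrix (Fin n) (Fin n) F) (ty g) :=
  (exists_mtype ((Matrix.SpecialLinearGroup.toGL g : GLn) : Matrix (Fin n) (Fin n) F)).choose_spec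

theorem isConj_of_ty {g h : SL} (e : ty g = ty h) :
    ∃ c : GLn, c * Matrix.SpecialLinearGroup.toGL g * c⁻¹ = Matrix.SpecialLinearGroup.toGL h := by
  have h1 := ty_spec h
  rw [← e] at h1
  have h2 := (ty_spec g).isConj h1
  rw [← isConj_iff_coe, isConj_iff] at h2
  exact h2

theorem ty_of_isConj {g h : SL} (e : IsConj g h) : ty g = ty h := by
  have h1 : IsConj (Matrix.SpecialLinearGroup.toGL g : GLn) (Matrix.SpecialLinearGroup.toGL h) :=
    MonoidHom.map_isConj Matrix.SpecialLinearGroup.toGL e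
  rw [isConj_iff_coe] at h1
  exact ((ty_spec g).of_isConj h1).unique (ty_spec h)

/-- types of determinant one -/
def T1 (F : Type u) [Field F] (n : ℕ) : Set (Multiset (F[X] × ℕ)) := {s | s ∈ TA F Set.univ n ∧ dT s = 1}

theorem ty_mem (g : SL) : ty g ∈ T1 F n := by
  have h := ty_spec g
  refine ⟨⟨fun d hd => ⟨⟨h.good d hd, h.isUnit_iff.mp (Matrix.SpecialLinearGroup.toGL g : GLn).isUnit d hd⟩,
    Set.mem_univ _⟩, ?_⟩, ?_⟩
  · have := h.card
    rw [Fintype.card_fin] at this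
    exact this
  · rw [← det_mtype h]
    exact g.2

/-- the type of a class -/
noncomputable def Ph (C : ConjClasses SL) : T1 F n := ⟨ty (rep C), ty_mem _⟩

/-- the gcd of `q - 1` and the exponents -/
noncomputable def eS (s : Multiset (F[X] × ℕ)) : ℕ := Nat.gcd (Nat.card F - 1) (s.map Prod.snd).gcd

theorem eS_pos [Finite F] (s : Multiset (F[X] × ℕ)) : 0 < eS s := by
  apply Nat.gcd_pos_of_pos_left
  have : 1 < Nat.card F := Finite.one_lt_card
  omega

theorem card_fiber_le [Finite F] (s : T1 F n) : Nat.card {C : ConjClasses SL // Ph C = s} ≤ eS s.1 := by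
  by_cases hne : Nonempty {C : ConjClasses SL // Ph C = s}
  swap
  · rw [not_nonempty_iff] at hne
    rw [Nat.card_of_isEmpty]
    exact Nat.zero_le _
  obtain ⟨C₀, hC₀⟩ := hne
  have hex : ∀ C : {C : ConjClasses SL // Ph C = s}, ∃ c : GLn,
      c * Matrix.SpecialLinearGroup.toGL (rep C₀) * c⁻¹ = Matrix.SpecialLinearGroup.toGL (rep C.1) := by
    intro C
    apply isConj_of_ty
    exact congrArg Subtype.val (hC₀.trans C.2.symm)
  choose g hg using hex
  let x₀ : GLn := Matrix.SpecialLinearGroup.toGL (rep C₀)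
  let H : Subgroup Fˣ := (Subgroup.centralizer ({x₀} : Set GLn)).map Matrix.GeneralLinearGroup.det
  have hinj : Function.Injective (fun C : {C : ConjClasses SL // Ph C = s} =>
      ((Matrix.GeneralLinearGroup.det (g C) : Fˣ) : Fˣ ⧸ H)) := by
    intro C D hCD
    rw [QuotientGroup.eq] at hCD
    obtain ⟨y, hy, hdet⟩ := hCD
    have hy' : y * x₀ = x₀ * y := Subgroup.mem_centralizer_singleton_iff.1 hy
    let k : GLn := g D * y⁻¹ * (g C)⁻¹
    have hk : Matrix.GeneralLinearGroup.det k = 1 := by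
      change Matrix.GeneralLinearGroup.det (g D * y⁻¹ * (g C)⁻¹) = 1
      rw [map_mul, map_mul, map_inv, map_inv, hdet]
      group
    have hkx : k * Matrix.SpecialLinearGroup.toGL (rep C.1) * k⁻¹ = Matrix.SpecialLinearGroup.toGL (rep D.1) := by
      rw [← hg C, ← hg D]
      change g D * y⁻¹ * (g C)⁻¹ * (g C * x₀ * (g C)⁻¹) * (g D * y⁻¹ * (g C)⁻¹)⁻¹ = g D * x₀ * (g D)⁻¹
      calc g D * y⁻¹ * (g C)⁻¹ * (g C * x₀ * (g C)⁻¹) * (g D * y⁻¹ * (g C)⁻¹)⁻¹
          = g D * y⁻¹ * (x₀ * y) * (g D)⁻¹ := by group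
        _ = g D * y⁻¹ * (y * x₀) * (g D)⁻¹ := by rw [hy']
        _ = _ := by group
    have hconj : IsConj (rep C.1) (rep D.1) := by
      rw [isConj_iff]
      obtain ⟨k', hk'⟩ : ∃ k' : SL, (Matrix.SpecialLinearGroup.toGL k' : GLn) = k :=
        ⟨⟨(k : Matrix (Fin n) (Fin n) F), congrArg Units.val hk⟩, Units.ext rfl⟩
      refine ⟨k', ?_⟩
      rw [← hk', ← map_inv, ← map_mul, ← map_mul] at hkx
      exact Matrix.SpecialLinearGroup.toGL_injective hkx
    apply Subtype.ext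
    rw [← mk_rep C.1, ← mk_rep D.1, ConjClasses.mk_eq_mk_iff_isConj]
    exact hconj
  have h1 : Nat.card {C : ConjClasses SL // Ph C = s} ≤ Nat.card (Fˣ ⧸ H) := Nat.card_le_card_of_injective _ hinj
  refine h1.trans (Nat.le_of_dvd (eS_pos _) ?_)
  apply Nat.dvd_gcd
  · rw [← Nat.card_units]
    exact Subgroup.card_quotient_dvd_card H
  · rw [Multiset.dvd_gcd]
    intro i hi
    obtain ⟨d, hd, rfl⟩ := Multiset.mem_map.1 hi
    have hcyc : IsCyclic (Fˣ ⧸ H) := inferInstance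
    obtain ⟨z, hz⟩ := hcyc.exists_generator
    rw [← orderOf_eq_card_of_forall_mem_zpowers hz]
    apply orderOf_dvd_of_pow_eq_one
    obtain ⟨b, rfl⟩ := QuotientGroup.mk_surjective z
    rw [← QuotientGroup.mk_pow, QuotientGroup.eq_one_iff]
    have hty : MType (x₀ : Matrix (Fin n) (Fin n) F) s.1 := by
      have h3 := ty_spec (rep C₀)
      rw [show ty (rep C₀) = s.1 from congrArg Subtype.val hC₀] at h3
      exact h3
    obtain ⟨y, hy1, hy2⟩ := exists_commute_det_matrix hty hd b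
    exact ⟨y, Subgroup.mem_centralizer_singleton_iff.2 hy1, hy2⟩

theorem T1_sub (n : ℕ) : T1 F n ⊆ TA F Set.univ n := fun _ h => h.1

theorem finite_T1 [Finite F] (n : ℕ) : (T1 F n).Finite := (finite_TA _ n).subset (T1_sub n)

theorem dvd_gcd_iff (s : Multiset (F[X] × ℕ)) (e : ℕ) : e ∣ (s.map Prod.snd).gcd ↔ ∀ d ∈ s, e ∣ d.2 := by
  rw [Multiset.dvd_gcd]
  constructor
  · intro h d hd
    exact h d.2 (Multiset.mem_map_of_mem _ hd)
  · intro h i hi
    obtain ⟨d, hd, rfl⟩ := Multiset.mem_map.1 hi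
    exact h d hd

theorem dvd_of_forall {A : Set ℕ} {s : Multiset (F[X] × ℕ)} (hs : s ∈ TA F A n) {e : ℕ} (h : ∀ d ∈ s, e ∣ d.2) : e ∣ n := by
  rw [← hs.2, Tot]
  apply Multiset.dvd_sum
  intro x hx
  obtain ⟨d, hd, rfl⟩ := Multiset.mem_map.1 hx
  exact (h d hd).mul_left _

theorem eS_eq [Finite F] (hn : 1 ≤ n) {s : Multiset (F[X] × ℕ)} (hs : s ∈ T1 F n) :
    eS s = ∑ e ∈ (Nat.gcd n (Nat.card F - 1)).divisors, if ∀ d ∈ s, e ∣ d.2 then Nat.totient e else 0 := by
  have h1 : eS s ∣ Nat.gcd n (Nat.card F - 1) := by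
    apply Nat.dvd_gcd
    · exact (Nat.gcd_dvd_right _ _).trans (dvd_of_forall hs.1 ((dvd_gcd_iff s _).1 (dvd_refl _)))
    · exact Nat.gcd_dvd_left _ _
  have h0 : Nat.gcd n (Nat.card F - 1) ≠ 0 := (Nat.gcd_pos_of_pos_left _ hn).ne'
  rw [← Finset.sum_filter]
  conv_lhs => rw [← Nat.sum_totient (eS s)]
  apply Finset.sum_congr _ (fun _ _ => rfl)
  ext e
  rw [Nat.mem_divisors, Finset.mem_filter, Nat.mem_divisors]
  constructor
  · rintro ⟨h2, h3⟩
    exact ⟨⟨h2.trans h1, h0⟩, (dvd_gcd_iff s e).1 (h2.trans (Nat.gcd_dvd_right _ _))⟩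
  · rintro ⟨⟨h2, h3⟩, h4⟩
    exact ⟨Nat.dvd_gcd (h2.trans (Nat.gcd_dvd_right _ _)) ((dvd_gcd_iff s e).2 h4), (eS_pos s).ne'⟩

/-- types of determinant one with exponents divisible by `e` -/
def U (F : Type u) [Field F] (T' : Multiset (F[X] × ℕ) → Prop) (e n : ℕ) : Set (Multiset (F[X] × ℕ)) :=
  {s | (s ∈ T1 F n ∧ T' s) ∧ ∀ d ∈ s, e ∣ d.2}

theorem card_classes_le [Finite F] (hn : 1 ≤ n) (Q : ConjClasses SL → Prop) (T' : Multiset (F[X] × ℕ) → Prop)
    (hQ : ∀ C, Q C → T' (Ph C).1) :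
    Nat.card {C : ConjClasses SL // Q C} ≤
      ∑ e ∈ (Nat.gcd n (Nat.card F - 1)).divisors, Nat.totient e * Nat.card (U F T' e n) := by
  have hfinC : Finite (ConjClasses SL) := inferInstance
  have hfin1 := (finite_T1 (F := F) n).to_subtype
  have := Fintype.ofFinite {s : T1 F n // T' s.1}
  let f : {C : ConjClasses SL // T' (Ph C).1} → {s : T1 F n // T' s.1} := fun C => ⟨Ph C.1, C.2⟩
  have h1 : Nat.card {C : ConjClasses SL // Q C} ≤ Nat.card {C : ConjClasses SL // T' (Ph C).1} :=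
    Nat.card_le_card_of_injective (fun C => ⟨C.1, hQ C.1 C.2⟩) (fun C D h => Subtype.ext (congrArg (fun t => t.1) h))
  have h2 : Nat.card {C : ConjClasses SL // T' (Ph C).1} ≤ ∑ s : {s : T1 F n // T' s.1}, eS s.1.1 := by
    rw [← Nat.card_congr (Equiv.sigmaFiberEquiv f), Nat.card_sigma]
    apply Finset.sum_le_sum
    intro s _
    refine le_trans ?_ (card_fiber_le s.1)
    exact Nat.card_le_card_of_injective (fun C => (⟨C.1.1, congrArg Subtype.val C.2⟩ : {C : ConjClasses SL // Ph C = s.1}))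
      (fun C D h => Subtype.ext (Subtype.ext (congrArg (fun t => t.1) h)))
  refine h1.trans (h2.trans ?_)
  rw [Finset.sum_congr rfl (fun s _ => eS_eq hn s.1.2), Finset.sum_comm]
  apply Finset.sum_le_sum
  intro e _
  rw [← Finset.sum_filter, Finset.sum_const, smul_eq_mul, mul_comm]
  apply Nat.mul_le_mul_left
  have hU : Finite (U F T' e n) := ((finite_T1 (F := F) n).subset (fun s hs => hs.1.1)).to_subtype
  rw [← Fintype.card_subtype, ← Nat.card_eq_fintype_card]
  exact Nat.card_le_card_of_injective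
    (fun a : {a : {s : T1 F n // T' s.1} // ∀ d ∈ a.1.1, e ∣ d.2} => (⟨a.1.1.1, ⟨a.1.1.2, a.1.2⟩, a.2⟩ : U F T' e n))
    (fun a b h => Subtype.ext (Subtype.ext (Subtype.ext (congrArg (fun t => t.1) h))))

/-! ### numbers -/

/-- number of types with exponents at least two -/
noncomputable def E (F : Type u) [Field F] (n : ℕ) : ℕ := Nat.card (TA F (Set.Ici 2) n)

/-- number of those with determinant of order dividing `e` -/
noncomputable def EE (F : Type u) [Field F] (e n : ℕ) : ℕ :=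
  Nat.card {t : Multiset (F[X] × ℕ) // t ∈ TA F (Set.Ici 2) n ∧ dT t ^ e = 1}

noncomputable def W (F : Type u) [Field F] (n : ℕ) : ℕ :=
  ∑ m ∈ Finset.range n, Nat.card F ^ m * E F (n - (m + 1))

theorem TA_univ_eq (n : ℕ) : TA F Set.univ n = TA F (insert 1 (Set.Ici 2)) n := by
  apply Set.Subset.antisymm
  · intro s hs
    refine ⟨fun d hd => ⟨(hs.1 d hd).1, ?_⟩, hs.2⟩
    have := snd_le_of_mem hs hd
    simp only [Set.mem_insert_iff, Set.mem_Ici]
    omega
  · exact TA_mono (Set.subset_univ _) n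

theorem one_notMem : (1 : ℕ) ∉ Set.Ici 2 := by simp

theorem K_eq [Finite F] (n : ℕ) : Nat.card (TA F Set.univ n) = E F n + (Nat.card F - 1) * W F n := by
  rw [TA_univ_eq, card_TA_insert' (le_refl 1) one_notMem, Nat.div_one]
  simp only [one_mul]
  rfl

theorem EE_le [Finite F] (e n : ℕ) : EE F e n ≤ E F n := by
  have := (finite_TA (F := F) (Set.Ici 2) n).to_subtype
  exact Nat.card_le_card_of_injective (fun t => (⟨t.1, t.2.1⟩ : TA F (Set.Ici 2) n))
    (fun a b h => Subtype.ext (congrArg (fun t => t.1) h))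

theorem dlt_ne_zero {g : F[X]} (h : g.coeff 0 ≠ 0) : dlt g ≠ 0 :=
  mul_ne_zero (pow_ne_zero _ (by simp)) h

theorem dT_ne_zero {A : Set ℕ} {s : Multiset (F[X] × ℕ)} (hs : s ∈ TA F A n) : dT s ≠ 0 := by
  rw [dT]
  apply Multiset.prod_ne_zero
  intro h0
  obtain ⟨d, hd, h⟩ := Multiset.mem_map.1 h0
  have hg := (hs.1 d hd).1
  exact pow_ne_zero _ (dlt_ne_zero (coeff_zero_ne hg.1.1 hg.1.2.1 hg.2)) h

theorem card_roots_le (e : ℕ) (he : 1 ≤ e) {c : F} (hc : c ≠ 0) : Finite {δ : F // (δ * c) ^ e = 1} ∧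
    Nat.card {δ : F // (δ * c) ^ e = 1} ≤ e := by
  have hinj : Function.Injective (fun δ : {δ : F // (δ * c) ^ e = 1} =>
      (⟨δ.1 * c, (mem_nthRootsFinset he _).2 δ.2⟩ : nthRootsFinset e (1 : F))) := by
    intro a b h
    exact Subtype.ext (mul_right_cancel₀ hc (congrArg Subtype.val h))
  refine ⟨Finite.of_injective _ hinj, ?_⟩
  refine (Nat.card_le_card_of_injective _ hinj).trans ?_
  rw [Nat.card_eq_fintype_card, Fintype.card_coe]
  rw [nthRootsFinset_def]
  exact (Multiset.toFinset_card_le _).trans (card_nthRoots e 1)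


/-- counting polynomials with a condition on the determinant -/
theorem card_dlt_le [Finite F] (e : ℕ) (he : 1 ≤ e) {c : F} (hc : c ≠ 0) (j : ℕ) :
    Nat.card {g : F[X] // (g.Monic ∧ g.coeff 0 ≠ 0) ∧ g.natDegree = j + 1 ∧ (dlt g * c) ^ e = 1} ≤
      e * Nat.card F ^ j := by
  obtain ⟨hf, hle⟩ := card_roots_le e he hc
  have hf2 := finite_MS (F := F) j
  rw [← card_MS j]
  refine le_trans ?_ (Nat.mul_le_mul_right _ hle)
  rw [← Nat.card_prod]
  apply Nat.card_le_card_of_injective (fun g => ((⟨dlt g.1, g.2.2.2⟩ : {δ : F // (δ * c) ^ e = 1}),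
    (⟨g.1.divX, monic_divX g.2.1.1 g.2.2.1⟩ : MS F j)))
  intro g h hgh
  have h1 : dlt g.1 = dlt h.1 := congrArg (fun x => x.1.1) hgh
  have h2 : g.1.divX = h.1.divX := congrArg (fun x => x.2.1) hgh
  rw [dlt, dlt, g.2.2.1, h.2.2.1] at h1
  have h3 : g.1.coeff 0 = h.1.coeff 0 := mul_left_cancel₀ (pow_ne_zero _ (by simp)) h1
  apply Subtype.ext
  rw [← divX_mul_X_add g.1, ← divX_mul_X_add h.1, h2, h3]

theorem dT_bk_one {g : F[X]} (hg : g.Monic) (h0 : g.coeff 0 ≠ 0) : dT (bk 1 g) = dlt g := by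
  have h1 : ∀ m : Multiset F[X], (∀ φ ∈ m, φ.Monic) → ((m.map (fun φ => (φ, 1))).map fun d => dlt d.1 ^ d.2).prod = dlt m.prod := by
    intro m
    induction m using Multiset.induction_on with
    | empty => intro _; simp [dlt]
    | cons a m ih =>
      intro h
      have ha := h a (Multiset.mem_cons_self a m)
      have hm : ∀ φ ∈ m, φ.Monic := fun φ hφ => h φ (Multiset.mem_cons_of_mem hφ)
      rw [Multiset.map_cons, Multiset.map_cons, Multiset.prod_cons, Multiset.prod_cons, ih hm,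
        dlt_mul ha (by simpa using monic_multiset_prod_of_monic m id hm), pow_one]
  rw [dT, bk, h1 _ (fun φ hφ => (factor_facts hg h0 hφ).1), prod_factors hg]

/-- the splitting with its determinant -/
theorem dT_split [Finite F] {n : ℕ} (s : TA F (insert 1 (Set.Ici 2)) n) :
    dT s.1 = dlt (splitEquiv (le_refl 1) one_notMem n s).1.1 * dT (splitEquiv (le_refl 1) one_notMem n s).1.2 := by
  have h1 : (pr 1 s.1).Monic ∧ (pr 1 s.1).coeff 0 ≠ 0 ∧ _ ∧ bk 1 (pr 1 s.1) = fi 1 s.1 :=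
    pr_facts (i := 1) (fun d hd => (s.2.1 d hd).1)
  change dT s.1 = dlt (pr 1 s.1) * dT (s.1.filter (fun d => ¬ d.2 = 1))
  rw [← dT_bk_one h1.1 h1.2.1, h1.2.2.2, ← dT_add, fi, Multiset.filter_add_not]

theorem card_V [Finite F] (e : ℕ) (he : 1 ≤ e) (n : ℕ) :
    Nat.card {s : Multiset (F[X] × ℕ) // s ∈ TA F Set.univ n ∧ dT s ^ e = 1} ≤ e * W F n + EE F e n := by
  have hT : ∀ m, Fintype (TA F (Set.Ici 2) m) := fun m => (finite_TA _ m).fintype
  have hEE : Finite {t : Multiset (F[X] × ℕ) // t ∈ TA F (Set.Ici 2) n ∧ dT t ^ e = 1} :=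
    ((finite_TA (F := F) (Set.Ici 2) n).subset (fun t ht => ht.1) : {t | t ∈ TA F (Set.Ici 2) n ∧ dT t ^ e = 1}.Finite).to_subtype
  have h1 : Nat.card {s : Multiset (F[X] × ℕ) // s ∈ TA F Set.univ n ∧ dT s ^ e = 1} =
      Nat.card {x : F[X] × Multiset (F[X] × ℕ) // ((x.1.Monic ∧ x.1.coeff 0 ≠ 0) ∧
      1 * x.1.natDegree ≤ n ∧ x.2 ∈ TA F (Set.Ici 2) (n - 1 * x.1.natDegree)) ∧ (dlt x.1 * dT x.2) ^ e = 1} := by
    rw [TA_univ_eq]
    let e1 := splitEquiv (F := F) (le_refl 1) one_notMem n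
    have e2 : {s : TA F (insert 1 (Set.Ici 2)) n // dT s.1 ^ e = 1} ≃
        {x : {x : F[X] × Multiset (F[X] × ℕ) // (x.1.Monic ∧ x.1.coeff 0 ≠ 0) ∧
      1 * x.1.natDegree ≤ n ∧ x.2 ∈ TA F (Set.Ici 2) (n - 1 * x.1.natDegree)} // (dlt x.1.1 * dT x.1.2) ^ e = 1} :=
      e1.subtypeEquiv (fun s => by rw [dT_split s])
    refine (Nat.card_congr ?_).trans ((Nat.card_congr e2).trans (Nat.card_congr ?_))
    · exact (Equiv.subtypeSubtypeEquivSubtypeInter _ _).symm
    · exact Equiv.subtypeSubtypeEquivSubtypeInter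
        (fun x : F[X] × Multiset (F[X] × ℕ) => (x.1.Monic ∧ x.1.coeff 0 ≠ 0) ∧
          1 * x.1.natDegree ≤ n ∧ x.2 ∈ TA F (Set.Ici 2) (n - 1 * x.1.natDegree))
        (fun x => (dlt x.1 * dT x.2) ^ e = 1)
  rw [h1, card_pairs (le_refl 1) n (fun g => g.Monic ∧ g.coeff 0 ≠ 0) (fun m => TA F (Set.Ici 2) m) finite_P
    (fun g t => (dlt g * dT t) ^ e = 1), Finset.sum_range_succ', Nat.div_one]
  apply Nat.add_le_add
  · rw [W, Finset.mul_sum]
    apply Finset.sum_le_sum
    intro m _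
    have h2 : ∀ t ∈ (Finset.univ : Finset (TA F (Set.Ici 2) (n - 1 * (m + 1)))),
        Nat.card {g : F[X] // (g.Monic ∧ g.coeff 0 ≠ 0) ∧ g.natDegree = m + 1 ∧ (dlt g * dT (t : Multiset (F[X] × ℕ))) ^ e = 1} ≤
          e * Nat.card F ^ m := fun t _ => card_dlt_le e he (dT_ne_zero t.2) m
    refine (Finset.sum_le_card_nsmul _ _ _ h2).trans (le_of_eq ?_)
    rw [Finset.card_univ, ← Nat.card_eq_fintype_card, smul_eq_mul, one_mul, E]
    ring
  · have h3 : ∀ t : TA F (Set.Ici 2) (n - 1 * 0), Nat.card {g : F[X] // (g.Monic ∧ g.coeff 0 ≠ 0) ∧ g.natDegree = 0 ∧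
        (dlt g * dT (t : Multiset (F[X] × ℕ))) ^ e = 1} ≤ if dT (t : Multiset (F[X] × ℕ)) ^ e = 1 then 1 else 0 := by
      intro t
      have h4 : ∀ g : F[X], g.Monic → g.natDegree = 0 → g = 1 := fun g h h' => eq_one_of_monic_natDegree_zero h h'
      split_ifs with h5
      · have : Subsingleton {g : F[X] // (g.Monic ∧ g.coeff 0 ≠ 0) ∧ g.natDegree = 0 ∧
            (dlt g * dT (t : Multiset (F[X] × ℕ))) ^ e = 1} :=
          ⟨fun a b => Subtype.ext ((h4 a.1 a.2.1.1 a.2.2.1).trans (h4 b.1 b.2.1.1 b.2.2.1).symm)⟩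
        exact Finite.card_le_one_iff_subsingleton.2 this
      · have : IsEmpty {g : F[X] // (g.Monic ∧ g.coeff 0 ≠ 0) ∧ g.natDegree = 0 ∧
            (dlt g * dT (t : Multiset (F[X] × ℕ))) ^ e = 1} := by
          constructor
          rintro ⟨g, ⟨h6, h7⟩, h8, h9⟩
          apply h5
          rw [h4 g h6 h8] at h9
          simpa [dlt] using h9
        rw [Nat.card_of_isEmpty]
    refine (Finset.sum_le_sum (fun t _ => h3 t)).trans ?_
    rw [← Finset.sum_filter, Finset.sum_const, smul_eq_mul, mul_one, ← Fintype.card_subtype, ← Nat.card_eq_fintype_card]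
    exact Nat.card_le_card_of_injective (fun t => (⟨t.1.1, by
      have := t.1.2
      simpa using this, t.2⟩ : {t : Multiset (F[X] × ℕ) // t ∈ TA F (Set.Ici 2) n ∧ dT t ^ e = 1}))
      (fun a b h => Subtype.ext (Subtype.ext (congrArg (fun t => t.1) h)))


/-- dividing the exponents -/
noncomputable def dv (e : ℕ) (s : Multiset (F[X] × ℕ)) : Multiset (F[X] × ℕ) := s.map (fun d => (d.1, d.2 / e))

theorem dv_facts {e : ℕ} (he : 1 ≤ e) {s : Multiset (F[X] × ℕ)} (hs : ∀ d ∈ s, (Good d ∧ d.1 ≠ X) ∧ e ∣ d.2) :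
    (∀ d ∈ dv e s, Good d ∧ d.1 ≠ X) ∧ Tot s = e * Tot (dv e s) ∧ dT s = dT (dv e s) ^ e ∧
      (dv e s).map (fun d => (d.1, e * d.2)) = s := by
  have hback : (dv e s).map (fun d => (d.1, e * d.2)) = s := by
    rw [dv, Multiset.map_map]
    conv_rhs => rw [← Multiset.map_id s]
    apply Multiset.map_congr rfl
    intro d hd
    have := (hs d hd).2
    change (d.1, e * (d.2 / e)) = d
    rw [Nat.mul_div_cancel' this]
  refine ⟨?_, ?_, ?_, hback⟩
  · intro d hd
    obtain ⟨d', hd', rfl⟩ := Multiset.mem_map.1 hd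
    obtain ⟨⟨⟨h1, h2, h3⟩, h4⟩, h5⟩ := hs d' hd'
    exact ⟨⟨h1, h2, Nat.div_pos (Nat.le_of_dvd h3 h5) he⟩, h4⟩
  · conv_lhs => rw [← hback]
    rw [Tot, Multiset.map_map, Tot, ← Multiset.sum_map_mul_left]
    congr 1
    apply Multiset.map_congr rfl
    intro d _
    simp only [Function.comp_apply]
    ring
  · conv_lhs => rw [← hback]
    rw [dT, Multiset.map_map, dT, ← Multiset.prod_map_pow]
    congr 1
    apply Multiset.map_congr rfl
    intro d _
    simp only [Function.comp_apply]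
    rw [← pow_mul, mul_comm]

theorem card_U_le_V [Finite F] {e n : ℕ} (he : 1 ≤ e) :
    Nat.card (U F (fun _ => True) e n) ≤
      Nat.card {s : Multiset (F[X] × ℕ) // s ∈ TA F Set.univ (n / e) ∧ dT s ^ e = 1} := by
  have hfin : Finite {s : Multiset (F[X] × ℕ) // s ∈ TA F Set.univ (n / e) ∧ dT s ^ e = 1} :=
    ((finite_TA (F := F) Set.univ (n / e)).subset (fun t ht => ht.1) :
      {t | t ∈ TA F Set.univ (n / e) ∧ dT t ^ e = 1}.Finite).to_subtype
  have hU : ∀ s : U F (fun _ => True) e n, ∀ d ∈ s.1, (Good d ∧ d.1 ≠ X) ∧ e ∣ d.2 :=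
    fun s d hd => ⟨(s.2.1.1.1.1 d hd).1, s.2.2 d hd⟩
  apply Nat.card_le_card_of_injective (fun s : U F (fun _ => True) e n =>
    (⟨dv e s.1, ⟨⟨fun d hd => ⟨(dv_facts he (hU s)).1 d hd, Set.mem_univ _⟩, by
      have h1 := (dv_facts he (hU s)).2.1
      have h2 := s.2.1.1.1.2
      rw [h2] at h1
      exact (Nat.div_eq_of_eq_mul_right he h1).symm⟩, by
      rw [← (dv_facts he (hU s)).2.2.1]
      exact s.2.1.1.2⟩⟩ : {s : Multiset (F[X] × ℕ) // s ∈ TA F Set.univ (n / e) ∧ dT s ^ e = 1}))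
  intro s t h
  have h1 : dv e s.1 = dv e t.1 := congrArg Subtype.val h
  apply Subtype.ext
  rw [← (dv_facts he (hU s)).2.2.2, ← (dv_facts he (hU t)).2.2.2, h1]

theorem card_U_le [Finite F] {e n : ℕ} (he : 1 ≤ e) :
    Nat.card (U F (fun _ => True) e n) ≤ e * W F (n / e) + EE F e (n / e) :=
  (card_U_le_V he).trans (card_V e he (n / e))

theorem card_TA_univ_le [Finite F] (n : ℕ) : Nat.card (TA F Set.univ n) ≤ Nat.card F ^ n := by
  rcases Nat.eq_zero_or_pos n with h | h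
  · subst h; rw [card_TA_zero, pow_zero]
  · exact (card_TA_univ_lt h).le

theorem card_U_le' [Finite F] {e n : ℕ} (he : 1 ≤ e) :
    Nat.card (U F (fun _ => True) e n) ≤ Nat.card F ^ (n / e) := by
  refine (card_U_le_V he).trans (le_trans ?_ (card_TA_univ_le (n / e)))
  have := (finite_TA (F := F) Set.univ (n / e)).to_subtype
  exact Nat.card_le_card_of_injective (fun t => (⟨t.1, t.2.1⟩ : TA F Set.univ (n / e)))
    (fun a b h => Subtype.ext (congrArg (fun t => t.1) h))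

/-! ### values -/

theorem E_zero : E F 0 = 1 := card_TA_zero _

theorem E_one : E F 1 = 0 := by
  rw [E]
  have : TA F (Set.Ici 2) 1 = ∅ := by
    rw [Set.eq_empty_iff_forall_notMem]
    intro s hs
    have h0 : s = 0 := by
      rw [Multiset.eq_zero_iff_forall_notMem]
      intro d hd
      have h1 := snd_le_of_mem hs hd
      have h2 := (hs.1 d hd).2
      rw [Set.mem_Ici] at h2
      omega
    have h1 := hs.2
    rw [h0] at h1
    simp [Tot] at h1
  rw [this]; simp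

theorem TA_Ici (n : ℕ) : TA F (Set.Ici 2) n = TA F (Set.Icc 2 n) n := by
  apply Set.Subset.antisymm
  · intro s hs
    exact ⟨fun d hd => ⟨(hs.1 d hd).1, ⟨(hs.1 d hd).2, (snd_le_of_mem hs hd).2⟩⟩, hs.2⟩
  · exact TA_mono (fun x hx => hx.1) n

theorem card_TA2 [Finite F] (n : ℕ) : Nat.card (TA F {2} n) =
    ∑ m ∈ Finset.range (n / 2 + 1), Nat.card (PS F m) * Nat.card (TA F ∅ (n - 2 * m)) := by
  have h := card_TA_insert (F := F) (i := 2) (by norm_num) (A := ∅) (by simp) n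
  rw [show (insert 2 (∅ : Set ℕ)) = {2} by simp] at h
  exact h

theorem card_PS_one [Finite F] : Nat.card (PS F 1) = Nat.card F - 1 := by
  rw [card_PS_succ, pow_zero, mul_one]

theorem card_PS_two [Finite F] : Nat.card (PS F 2) = (Nat.card F - 1) * Nat.card F := by
  rw [card_PS_succ, pow_one]

theorem TA2_one [Finite F] : Nat.card (TA F {2} 1) = 0 := by
  rw [card_TA2]
  simp [-Nat.card_coe_set_eq, card_TA_empty]

theorem TA2_two [Finite F] : Nat.card (TA F {2} 2) = Nat.card F - 1 := by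
  rw [card_TA2]
  simp [-Nat.card_coe_set_eq, Finset.sum_range_succ, card_TA_empty, card_TA_zero, card_PS_one]

theorem TA2_three [Finite F] : Nat.card (TA F {2} 3) = 0 := by
  rw [card_TA2]
  simp [-Nat.card_coe_set_eq, Finset.sum_range_succ, card_TA_empty]

theorem TA2_four [Finite F] : Nat.card (TA F {2} 4) = (Nat.card F - 1) * Nat.card F := by
  rw [card_TA2]
  simp [-Nat.card_coe_set_eq, Finset.sum_range_succ, card_TA_empty, card_TA_zero, card_PS_two]

theorem E_two [Finite F] : E F 2 = Nat.card F - 1 := by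
  rw [E, TA_Ici, show Set.Icc 2 2 = ({2} : Set ℕ) by simp, TA2_two]

theorem E_three [Finite F] : E F 3 = Nat.card F - 1 := by
  rw [E, TA_Ici, show Set.Icc 2 3 = (insert 3 {2} : Set ℕ) by ext x; simp; omega,
    card_TA_insert (by norm_num) (by simp)]
  simp [-Nat.card_coe_set_eq, Finset.sum_range_succ, card_TA_zero, card_PS_one, card_PS_zero, TA2_three]

theorem TA23_zero [Finite F] : Nat.card (TA F (insert 3 {2}) 0) = 1 := card_TA_zero _

theorem TA23_four [Finite F] : Nat.card (TA F (insert 3 {2}) 4) = (Nat.card F - 1) * Nat.card F := by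
  rw [card_TA_insert (by norm_num) (by simp)]
  simp [-Nat.card_coe_set_eq, Finset.sum_range_succ, card_PS_one, card_PS_zero, TA2_four, TA2_one]

theorem E_four [Finite F] : E F 4 = (Nat.card F - 1) * Nat.card F + (Nat.card F - 1) := by
  rw [E, TA_Ici, show Set.Icc 2 4 = (insert 4 (insert 3 {2}) : Set ℕ) by ext x; simp; omega,
    card_TA_insert (by norm_num) (by simp)]
  simp [-Nat.card_coe_set_eq, Finset.sum_range_succ, card_PS_one, card_PS_zero, TA23_four, TA23_zero]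

theorem W_one : W F 1 = 1 := by
  simp [W, E_zero]

theorem W_two [Finite F] : W F 2 = Nat.card F := by
  simp [W, Finset.sum_range_succ, E_zero, E_one]

theorem W_three [Finite F] : W F 3 = Nat.card F - 1 + Nat.card F ^ 2 := by
  simp [W, Finset.sum_range_succ, E_zero, E_one, E_two]

theorem W_four [Finite F] : W F 4 = (Nat.card F - 1) + Nat.card F * (Nat.card F - 1) + Nat.card F ^ 3 := by
  simp [W, Finset.sum_range_succ, E_zero, E_one, E_two, E_three]

theorem EW [Finite F] {n : ℕ} (hn : 1 ≤ n) : E F n + (Nat.card F - 1) * W F n < Nat.card F ^ n := by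
  rw [← K_eq]
  exact card_TA_univ_lt hn


theorem E_le [Finite F] {n : ℕ} (hn : 5 ≤ n) : E F n ≤ 2 * Nat.card F ^ (n - 3) := by
  obtain ⟨k, rfl⟩ : ∃ k, n = k + 5 := ⟨n - 5, by omega⟩
  obtain ⟨Q, hQ⟩ : ∃ Q, Nat.card F = Q + 1 := ⟨Nat.card F - 1, by have := Nat.card_pos (α := F); omega⟩
  have h1 := EW (F := F) (n := k + 5) (by omega)
  have h2 : W F (k + 5) = (∑ m ∈ Finset.range k, Nat.card F ^ m * E F (k + 5 - (m + 1))) +
      Nat.card F ^ k * E F 4 + Nat.card F ^ (k + 1) * E F 3 + Nat.card F ^ (k + 2) * E F 2 +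
      Nat.card F ^ (k + 3) * E F 1 + Nat.card F ^ (k + 4) * E F 0 := by
    rw [W, Finset.sum_range_succ, Finset.sum_range_succ, Finset.sum_range_succ, Finset.sum_range_succ,
      Finset.sum_range_succ]
    have e1 : k + 5 - (k + 1) = 4 := by omega
    have e2 : k + 5 - (k + 1 + 1) = 3 := by omega
    have e3 : k + 5 - (k + 2 + 1) = 2 := by omega
    have e4 : k + 5 - (k + 3 + 1) = 1 := by omega
    have e5 : k + 5 - (k + 4 + 1) = 0 := by omega
    rw [e1, e2, e3, e4, e5]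
  rw [h2, E_four, E_three, E_two, E_one, E_zero, hQ, Nat.add_sub_cancel] at h1
  rw [hQ, show k + 5 - 3 = k + 2 by omega]
  generalize (∑ m ∈ Finset.range k, (Q + 1) ^ m * E F (k + 5 - (m + 1))) = Z at h1
  have h3 : Q * (Z + (Q + 1) ^ k * (Q * (Q + 1) + Q) + (Q + 1) ^ (k + 1) * Q + (Q + 1) ^ (k + 2) * Q +
      (Q + 1) ^ (k + 3) * 0 + (Q + 1) ^ (k + 4) * 1) + 2 * (Q + 1) ^ (k + 2) =
      (Q + 1) ^ (k + 5) + (Q + 1) ^ k + Q * Z := by
    rw [pow_add _ k 1, pow_add _ k 2, pow_add _ k 3, pow_add _ k 4, pow_add _ k 5]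
    ring
  omega

/-! ### class number of `SL_n(q)` -/

theorem kSL_le [Finite F] (hn : 1 ≤ n) : Nat.card (ConjClasses SL) ≤
    ∑ e ∈ (Nat.gcd n (Nat.card F - 1)).divisors, Nat.totient e * Nat.card (U F (fun _ => True) e n) := by
  have h := card_classes_le (F := F) hn (fun _ => True) (fun _ => True) (fun _ _ => trivial)
  refine le_trans (le_of_eq ?_) h
  exact Nat.card_congr (Equiv.Set.univ _).symm

theorem sum_tot_le {D : ℕ} (hD : 1 ≤ D) (f : ℕ → ℕ) (b : ℕ) (h : ∀ e ∈ D.divisors, 2 ≤ e → f e ≤ b) :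
    ∑ e ∈ D.divisors, Nat.totient e * f e ≤ f 1 + (D - 1) * b := by
  have h1 : (1 : ℕ) ∈ D.divisors := Nat.one_mem_divisors.2 (by omega)
  rw [← Finset.add_sum_erase _ _ h1, Nat.totient_one, one_mul]
  apply Nat.add_le_add_left
  have h2 : ∑ e ∈ D.divisors.erase 1, Nat.totient e = D - 1 := by
    have := Nat.sum_totient D
    rw [← Finset.add_sum_erase _ _ h1, Nat.totient_one] at this
    omega
  rw [← h2, Finset.sum_mul]
  apply Finset.sum_le_sum
  intro e he
  apply Nat.mul_le_mul_left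
  have h3 := Finset.mem_erase.1 he
  have h4 : 0 < e := Nat.pos_of_mem_divisors h3.2
  exact h e h3.2 (by have := h3.1; omega)

theorem kSL_ge_five [Finite F] (hn : 5 ≤ n) : Nat.card (ConjClasses SL) ≤
    Nat.card F ^ (n - 1) + 3 * Nat.card F ^ (n - 2) := by
  obtain ⟨R, hR⟩ : ∃ R, Nat.card F = R + 2 := ⟨Nat.card F - 2, by
    have : 1 < Nat.card F := Finite.one_lt_card
    omega⟩
  have hD : Nat.gcd n (Nat.card F - 1) ≤ R + 1 := by
    apply Nat.le_of_dvd (by omega)
    rw [hR]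
    exact Nat.gcd_dvd_right _ _
  have hD1 : 1 ≤ Nat.gcd n (Nat.card F - 1) := Nat.gcd_pos_of_pos_left _ (by omega)
  have h1 := kSL_le (F := F) (n := n) (by omega)
  have h2 := sum_tot_le hD1 (fun e => Nat.card (U F (fun _ => True) e n)) (Nat.card F ^ (n - 3)) (by
    intro e he h2e
    refine (card_U_le' (by omega)).trans (Nat.pow_le_pow_right (by omega) ?_)
    have : n / e ≤ n / 2 := Nat.div_le_div_left h2e (by norm_num)
    omega)
  have h3 := card_U_le (F := F) (e := 1) (n := n) (le_refl 1)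
  rw [Nat.div_one, one_mul] at h3
  have h4 := EE_le (F := F) 1 n
  have h5 := E_le (F := F) hn
  have h6 := EW (F := F) (n := n) (by omega)
  have h7 : (Nat.gcd n (Nat.card F - 1) - 1) * Nat.card F ^ (n - 3) ≤ R * Nat.card F ^ (n - 3) :=
    Nat.mul_le_mul_right _ (by omega)
  rw [hR] at *
  have e1 : (R + 2) ^ (n - 1) = (R + 2) ^ (n - 3) * (R + 2) ^ 2 := by rw [← pow_add]; congr 1; omega
  have e2 : (R + 2) ^ (n - 2) = (R + 2) ^ (n - 3) * (R + 2) := by rw [← pow_succ]; congr 1; omega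
  have e3 : (R + 2) ^ n = (R + 2) ^ (n - 3) * (R + 2) ^ 3 := by rw [← pow_add]; congr 1; omega
  rw [e1, e2]
  rw [e3] at h6
  rw [show R + 2 - 1 = R + 1 by omega] at *
  generalize (R + 2) ^ (n - 3) = v at *
  generalize Nat.card (ConjClasses SL) = K at *
  generalize W F n = w at *
  generalize E F n = E' at *
  have hk : K ≤ w + E' + R * v := by
    omega
  have h8 : R * E' ≤ R * (2 * v) := Nat.mul_le_mul_left _ h5
  have h9 : (R + 1) * K ≤ (R + 1) * (w + E' + R * v) := Nat.mul_le_mul_left _ hk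
  refine Nat.le_of_mul_le_mul_left (?_ : (R + 1) * K ≤ (R + 1) * _) (by omega)
  have h10 : 0 ≤ v * R ^ 2 := Nat.zero_le _
  have h11 : 0 ≤ v * R := Nat.zero_le _
  clear h1 h2 h3 h7 e1 e2 e3 hD hD1
  nlinarith

end Cfsg.Agent.Lib.SLCount
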