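import Cfsg.Agent.Lib.GUType
import Cfsg.Agent.Lib.SLCount

set_option autoImplicit false
set_option linter.unusedSectionVars false

/-! Types of unitary matrices and the number of `SU`-classes of a type (helper96). -/

open Cfsg

namespace Cfsg.Agent.Lib.GUType

open Module Polynomial Cfsg.Agent.Lib.FXMod Cfsg.Agent.Lib.FXType Cfsg.Agent.Lib.GLClass Cfsg.Agent.Lib.PolyStar Cfsg.Agent.Lib.HermAlg
  Cfsg.Agent.Lib.HermType Cfsg.Agent.Lib.HermType2 Cfsg.Agent.Lib.GLDet Cfsg.Agent.Lib.GLCount Cfsg.Agent.Lib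

universe u

variable {K : Type u} [Field K]

section

variable {n q : ℕ}

/-- the star of a unit -/
noncomputable def stU (σ : K →+* K) (Z : GL (Fin n) K) : GL (Fin n) K :=
  ⟨UnitStar.st σ (Z : Matrix (Fin n) (Fin n) K), UnitStar.st σ ((Z⁻¹ : GL (Fin n) K) : Matrix (Fin n) (Fin n) K),
    by rw [← UnitStar.st_mul, Units.inv_mul, UnitStar.st_one], by rw [← UnitStar.st_mul, Units.mul_inv, UnitStar.st_one]⟩

theorem stU_mul (σ : K →+* K) (Y Z : GL (Fin n) K) : stU σ (Y * Z) = stU σ Z * stU σ Y :=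
  Units.ext (UnitStar.st_mul σ _ _)

theorem stU_stU {σ : K →+* K} (hσ : ∀ x, σ (σ x) = x) (Z : GL (Fin n) K) : stU σ (stU σ Z) = Z :=
  Units.ext (UnitStar.st_st σ hσ _)

theorem stU_one (σ : K →+* K) : stU σ (1 : GL (Fin n) K) = 1 := Units.ext (UnitStar.st_one σ)

theorem stU_inv (σ : K →+* K) (Z : GL (Fin n) K) : stU σ Z⁻¹ = (stU σ Z)⁻¹ := by
  rw [eq_inv_iff_mul_eq_one, ← stU_mul, mul_inv_cancel, stU_one]

theorem det_stU (σ : K →+* K) (Z : GL (Fin n) K) :
    ((Matrix.GeneralLinearGroup.det (stU σ Z) : Kˣ) : K) = σ (Matrix.GeneralLinearGroup.det Z : Kˣ) := by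
  change Matrix.det (UnitStar.st σ (Z : Matrix (Fin n) (Fin n) K)) = σ (Matrix.det (Z : Matrix (Fin n) (Fin n) K))
  rw [UnitStar.st, Matrix.det_transpose]
  exact (RingHom.map_det σ _).symm

theorem mem_GU_iff' [Fintype K] (hK : Fintype.card K = q ^ 2) (A : GL (Fin n) K) :
    A ∈ Cfsg.GU n K q ↔ stU (ClUnitary.frob hK) A * A = 1 := by
  rw [UnitStar.mem_GU_iff (ClUnitary.frob hK) (fun _ => rfl) A]
  constructor
  · intro h; exact Units.ext h
  · intro h; exact congrArg Units.val h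

/-- a normal matrix in the centralizer gives a unitary matrix in the centralizer -/
theorem unitary_of_normal [Fintype K] (hK : Fintype.card K = q ^ 2) {A Z : GL (Fin n) K} (hA : A ∈ Cfsg.GU n K q)
    (hZA : Z * A = A * Z) (hZ : Z * stU (ClUnitary.frob hK) Z = stU (ClUnitary.frob hK) Z * Z) :
    Z * (stU (ClUnitary.frob hK) Z)⁻¹ ∈ Cfsg.GU n K q ∧
      (Z * (stU (ClUnitary.frob hK) Z)⁻¹) * A = A * (Z * (stU (ClUnitary.frob hK) Z)⁻¹) ∧
      ((Matrix.GeneralLinearGroup.det (Z * (stU (ClUnitary.frob hK) Z)⁻¹) : Kˣ) : K) =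
        (Matrix.GeneralLinearGroup.det Z : Kˣ) / ((Matrix.GeneralLinearGroup.det Z : Kˣ) : K) ^ q := by
  set τ := stU (n := n) (ClUnitary.frob hK) with hτ
  have hA1 : τ A * A = 1 := (mem_GU_iff' hK A).mp hA
  have hA2 : τ A = A⁻¹ := eq_inv_of_mul_eq_one_left hA1
  refine ⟨?_, ?_, ?_⟩
  · rw [mem_GU_iff' hK]
    change τ (Z * (τ Z)⁻¹) * (Z * (τ Z)⁻¹) = 1
    rw [hτ, stU_mul, stU_inv, stU_stU (ClUnitary.frob_frob hK), ← hτ]
    have : Z⁻¹ * τ Z * (Z * (τ Z)⁻¹) = Z⁻¹ * (τ Z * Z) * (τ Z)⁻¹ := by group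
    rw [this, ← hZ]
    group
  · have h1 : τ A * τ Z = τ Z * τ A := by
      rw [hτ, ← stU_mul, ← stU_mul, hZA]
    rw [hA2] at h1
    have h2 : Commute (τ Z) A := by
      have : Commute (A⁻¹) (τ Z) := h1
      have h3 := this.inv_left
      rw [inv_inv] at h3
      exact h3.symm
    have h3 : Commute Z A := hZA
    exact (h3.mul_left h2.inv_left).eq
  · rw [map_mul, map_inv, Units.val_mul, Units.val_inv_eq_inv_val, det_stU, ClUnitary.frob_apply, div_eq_mul_inv]

theorem herm_single [Fintype K] (hK : Fintype.card K = q ^ 2) (M : Matrix (Fin n) (Fin n) K) (i j : Fin n) :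
    Cfsg.hermForm n K q (M.mulVec (Pi.single i 1)) (Pi.single j 1) = M j i ∧
    Cfsg.hermForm n K q (Pi.single i 1) (M.mulVec (Pi.single j 1)) = ClUnitary.frob hK (M i j) := by
  have hq : q ≠ 0 := by
    rintro rfl
    have : 0 < Fintype.card K := Fintype.card_pos
    rw [hK] at this
    simp at this
  constructor
  · rw [Cfsg.hermForm, Finset.sum_eq_single j]
    · simp
    · intro k _ hk
      rw [Pi.single_eq_of_ne hk, zero_pow hq, mul_zero]
    · intro h; exact absurd (Finset.mem_univ _) h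
  · rw [Cfsg.hermForm, Finset.sum_eq_single i]
    · simp [ClUnitary.frob_apply]
    · intro k _ hk
      rw [Pi.single_eq_of_ne hk, zero_mul]
    · intro h; exact absurd (Finset.mem_univ _) h

/-- symmetric types are realised with large centralizers -/
theorem exists_sym_matrix [Fintype K] (hK : Fintype.card K = q ^ 2) {s : Multiset (K[X] × ℕ)}
    (hs : ∀ d ∈ s, Good d ∧ d.1.coeff 0 ≠ 0) (hc : SymT (ClUnitary.frob hK) s) (hn : Tot s = n) :
    ∃ A : GL (Fin n) K, A ∈ Cfsg.GU n K q ∧ MType (A : Matrix (Fin n) (Fin n) K) s ∧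
      ∀ d ∈ s, ∀ b : Kˣ, ∃ U : GL (Fin n) K, U ∈ Cfsg.GU n K q ∧ U * A = A * U ∧
        ((Matrix.GeneralLinearGroup.det U : Kˣ) : K) = ((b : K) / (b : K) ^ q) ^ d.2 := by
  classical
  obtain ⟨ω, hω⟩ := UnSpec.exists_ne hK
  obtain ⟨V, _, _, h, f, hh, hf, ht, hD⟩ := HRealD_of_symm (ClUnitary.frob_frob hK) hω s hs hc
  have hfin := ht.finiteDimensional
  have hdim : finrank K V = n := by
    rw [ht.finrank]; exact hn
  obtain ⟨e, he⟩ := UnSpec.exists_standard hK n hh hdim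
  let mt : Module.End K V → Matrix (Fin n) (Fin n) K := fun f => LinearMap.toMatrix' (e.toLinearMap ∘ₗ f ∘ₗ e.symm.toLinearMap)
  have hmt : ∀ f x, (mt f).mulVec x = e (f (e.symm x)) := by
    intro f x
    rw [← Matrix.toLin'_apply, Matrix.toLin'_toMatrix']
    rfl
  have hext : ∀ M N : Matrix (Fin n) (Fin n) K, (∀ x, M.mulVec x = N.mulVec x) → M = N := by
    intro M N hMN
    apply Matrix.toLin'.injective
    exact LinearMap.ext fun x => by rw [Matrix.toLin'_apply, Matrix.toLin'_apply]; exact hMN x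
  have hmul : ∀ f g, mt (f * g) = mt f * mt g := by
    intro f g
    apply hext
    intro x
    rw [← Matrix.mulVec_mulVec, hmt, hmt, hmt, LinearEquiv.symm_apply_apply]
    rfl
  have hdet : ∀ f, (mt f).det = LinearMap.det f := by
    intro f
    change (LinearMap.toMatrix' (e.toLinearMap ∘ₗ f ∘ₗ e.symm.toLinearMap)).det = _
    rw [LinearMap.det_toMatrix']
    exact LinearMap.det_conj f e
  have hBt : MType (mt f) s := by
    refine HasType.ofEquiv ht e.symm ?_
    intro x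
    rw [Matrix.mulVecLin_apply, hmt, LinearEquiv.symm_apply_apply]
  have hBu : IsUnit (mt f) := by
    rw [hBt.isUnit_iff]
    intro d hd
    exact ne_X_of_coeff_zero (hs d hd).2
  obtain ⟨g, hg⟩ := hBu
  have hgU : g ∈ Cfsg.GU n K q := by
    intro u v
    show Cfsg.hermForm n K q ((g : Matrix (Fin n) (Fin n) K).mulVec u) ((g : Matrix (Fin n) (Fin n) K).mulVec v) = Cfsg.hermForm n K q u v
    rw [hg, hmt, hmt, he, hf, ← he, LinearEquiv.apply_symm_apply, LinearEquiv.apply_symm_apply]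
  refine ⟨g, hgU, by rw [hg]; exact hBt, ?_⟩
  intro d hd b
  obtain ⟨z, z', e1, e2, e3, e4⟩ := hD d hd b
  have hzu : IsUnit (mt z) := by
    rw [Matrix.isUnit_iff_isUnit_det, hdet, e4]
    exact isUnit_iff_ne_zero.2 (pow_ne_zero _ b.ne_zero)
  obtain ⟨Z, hZ⟩ := hzu
  have hst : UnitStar.st (ClUnitary.frob hK) (mt z) = mt z' := by
    have h1 : ∀ i j, mt z j i = ClUnitary.frob hK (mt z' i j) := by
      intro i j
      rw [← (herm_single hK (mt z) i j).1, ← (herm_single hK (mt z') i j).2]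
      have h2 : ∀ x y : Fin n → K, Cfsg.hermForm n K q ((mt z).mulVec x) y = Cfsg.hermForm n K q x ((mt z').mulVec y) := by
        intro x y
        rw [hmt, hmt]
        conv_lhs => rw [← e.apply_symm_apply y]
        conv_rhs => rw [← e.apply_symm_apply x]
        rw [he, he, e3]
      exact h2 _ _
    ext i j
    change ClUnitary.frob hK (mt z j i) = _
    rw [h1, ClUnitary.frob_frob]
  have hstZ : stU (ClUnitary.frob hK) Z * Z = Z * stU (ClUnitary.frob hK) Z := by
    apply Units.ext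
    change UnitStar.st (ClUnitary.frob hK) (Z : Matrix (Fin n) (Fin n) K) * (Z : Matrix (Fin n) (Fin n) K) =
      (Z : Matrix (Fin n) (Fin n) K) * UnitStar.st (ClUnitary.frob hK) (Z : Matrix (Fin n) (Fin n) K)
    rw [hZ, hst, ← hmul, ← hmul, e2]
  have hZg : Z * g = g * Z := by
    apply Units.ext
    change (Z : Matrix (Fin n) (Fin n) K) * (g : Matrix (Fin n) (Fin n) K) = (g : Matrix (Fin n) (Fin n) K) * (Z : Matrix (Fin n) (Fin n) K)
    rw [hZ, hg, ← hmul, ← hmul, e1]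
  obtain ⟨u1, u2, u3⟩ := unitary_of_normal hK hgU hZg hstZ.symm
  refine ⟨_, u1, u2, ?_⟩
  rw [u3]
  have h5 : ((Matrix.GeneralLinearGroup.det Z : Kˣ) : K) = (b : K) ^ d.2 := by
    change Matrix.det (Z : Matrix (Fin n) (Fin n) K) = _
    rw [hZ, hdet, e4]
  rw [h5, ← pow_mul, mul_comm d.2 q, pow_mul, ← div_pow]

end

end Cfsg.Agent.Lib.GUType
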