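import Cfsg.Agent.Lib.Clifford
import Cfsg.Agent.Lib.CharGalois

/-!
# Galois fixed constituents of restrictions to normal subgroups
-/

set_option autoImplicit false
set_option linter.all false

namespace Cfsg.Agent.Lib.GalFix

open Cfsg Cfsg.Agent.Lib.CharBasic Cfsg.Agent.Lib.Clifford
open scoped ComplexConjugate Classical

universe u

variable {G : Type u} [Group G]

/-- The Galois twist `f ↦ f (· ^ k)`. -/
def sg (k : ℕ) (f : G → ℂ) : G → ℂ := fun g => f (g ^ k)

theorem sg_apply (k : ℕ) (f : G → ℂ) (g : G) : sg k f g = f (g ^ k) := rfl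

theorem classInner_sg [Fintype G] {k : ℕ} (hk : k.Coprime (Nat.card G)) (φ ψ : G → ℂ) :
    classInner (sg k φ) (sg k ψ) = classInner φ ψ := by
  unfold classInner
  congr 1
  conv_rhs => rw [← Equiv.sum_comp (powCoprime hk.symm)]
  rfl

theorem coprime_sub {k : ℕ} (hk : k.Coprime (Nat.card G)) (H : Subgroup G) : k.Coprime (Nat.card H) :=
  Nat.Coprime.coprime_dvd_right (Subgroup.card_subgroup_dvd_card H) hk

theorem isIrr_sg [Finite G] {k : ℕ} (hk : k.Coprime (Nat.card G)) {χ : G → ℂ} (hχ : IsIrrCharacter G χ) :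
    IsIrrCharacter G (sg k χ) := CharGalois.isIrrCharacter_pow hχ hk

theorem sg_iterate (k : ℕ) (f : G → ℂ) (m : ℕ) : (sg k)^[m] f = sg (k ^ m) f := by
  induction m generalizing f with
  | zero => funext g; simp [sg]
  | succ m ih =>
    rw [Function.iterate_succ_apply, ih]
    funext g
    simp only [sg]
    rw [pow_succ, pow_mul]

theorem sg_one_mod [Finite G] {k : ℕ} (hk : k ≡ 1 [MOD Nat.card G]) (f : G → ℂ) : sg k f = f := by
  funext g
  show f (g ^ k) = f g
  congr 1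
  conv_rhs => rw [← pow_one g]
  rw [pow_eq_pow_iff_modEq]
  exact hk.of_dvd (orderOf_dvd_natCard g)

variable {N : Subgroup G} [hN : N.Normal]

theorem sg_cj (k : ℕ) (g : G) (f : N → ℂ) : sg k (cj N g f) = cj N g (sg k f) := by
  funext n
  show f _ = f _
  congr 1
  ext
  simp [conj_pow]

theorem sg_res (k : ℕ) (χ : G → ℂ) : sg k (fun n : N => χ n) = fun n : N => sg k χ n := rfl

/-- The conjugation action on functions. -/
@[reducible] def cjAction (N : Subgroup G) [N.Normal] : MulAction G (N → ℂ) where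
  smul g f := cj N g⁻¹ f
  one_smul f := by
    show cj N 1⁻¹ f = f
    rw [inv_one, cj_one]
  mul_smul g h f := by
    show cj N (g * h)⁻¹ f = cj N g⁻¹ (cj N h⁻¹ f)
    rw [cj_cj, mul_inv_rev]

theorem card_conj_dvd [Finite G] {θ : N → ℂ} (hθ : IsClassFunction N θ) :
    Nat.card {ψ : N → ℂ // ∃ g : G, ψ = cj N g θ} ∣ N.index := by
  letI := cjAction N
  have h1 := MulAction.index_stabilizer G θ
  have h2 : MulAction.orbit G θ = {ψ : N → ℂ | ∃ g : G, ψ = cj N g θ} := by
    ext ψ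
    constructor
    · rintro ⟨g, rfl⟩; exact ⟨g⁻¹, rfl⟩
    · rintro ⟨g, rfl⟩
      refine ⟨g⁻¹, ?_⟩
      show cj N g⁻¹⁻¹ θ = _
      rw [inv_inv]
  have h3 : N ≤ MulAction.stabilizer G θ := by
    intro n hn
    rw [MulAction.mem_stabilizer_iff]
    show cj N n⁻¹ θ = θ
    exact cj_of_mem hθ (N.inv_mem hn)
  rw [h2] at h1
  have h4 : Nat.card {ψ : N → ℂ // ∃ g : G, ψ = cj N g θ} = ({ψ : N → ℂ | ∃ g : G, ψ = cj N g θ}).ncard := rfl
  rw [h4, ← h1]
  exact Subgroup.index_dvd_of_le h3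

theorem fixed_constituent [Fintype G] [Fintype N] {p : ℕ} [Fact p.Prime] (hidx : ¬ p ∣ N.index) {k e : ℕ}
    (hk : Nat.Coprime k (Nat.card G)) (hke : k ^ (p ^ e) ≡ 1 [MOD Nat.card G]) {χ : G → ℂ}
    (hχi : IsIrrCharacter G χ) (hχ : sg k χ = χ) {θ : N → ℂ} (hθi : IsIrrCharacter N θ)
    (hθ : classInner (fun n : N => χ n) θ ≠ 0) : sg k θ = θ := by
  have hkN := coprime_sub hk N
  set X := {ψ : N → ℂ // ∃ g : G, ψ = cj N g θ} with hX
  haveI : Finite X := by
    have h1 : Set.Finite {ψ : N → ℂ | ∃ g : G, ψ = cj N g θ} := by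
      refine (Set.finite_range (fun g : G => cj N g θ)).subset ?_
      rintro ψ ⟨g, rfl⟩
      exact ⟨g, rfl⟩
    exact h1.to_subtype
  haveI := Fintype.ofFinite X
  have hf : ∀ ψ : X, ∃ g : G, sg k (ψ : N → ℂ) = cj N g θ := by
    rintro ⟨ψ, g, rfl⟩
    have h1 : classInner (fun n : N => χ n) (sg k (cj N g θ)) ≠ 0 := by
      have h2 : (fun n : N => χ n) = sg k (fun n : N => χ n) := by rw [sg_res, hχ]
      rw [h2, classInner_sg hkN, classInner_cj_res hχi.isClassFunction]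
      exact hθ
    exact exists_cj_eq hχi hθi (isIrr_sg hkN (isIrrCharacter_cj hθi g)) hθ h1
  set f : Function.End X := fun ψ => ⟨sg k (ψ : N → ℂ), hf ψ⟩ with hfdef
  have hfp : f ^ p ^ e = 1 := by
    funext ψ
    have h1 : ∀ m : ℕ, (((f ^ m) ψ : X) : N → ℂ) = sg (k ^ m) (ψ : N → ℂ) := by
      intro m
      induction m with
      | zero =>
        funext n
        show (ψ : N → ℂ) n = (ψ : N → ℂ) (n ^ (k ^ 0))
        rw [pow_zero, pow_one]
      | succ m ih =>
        rw [pow_succ']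
        show sg k (((f ^ m) ψ : X) : N → ℂ) = _
        rw [ih]
        funext n
        show (ψ : N → ℂ) ((n ^ k) ^ k ^ m) = (ψ : N → ℂ) (n ^ k ^ (m + 1))
        rw [← pow_mul, pow_succ']
    apply Subtype.ext
    rw [h1]
    show _ = (ψ : N → ℂ)
    exact sg_one_mod (hke.of_dvd (Subgroup.card_subgroup_dvd_card N)) _
  have h1 := Equiv.Perm.card_fixedPoints_modEq (p := p) hfp
  have h2 : ¬ p ∣ Fintype.card X := by
    intro h
    apply hidx
    rw [← Nat.card_eq_fintype_card] at h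
    exact h.trans (card_conj_dvd hθi.isClassFunction)
  have h3 : 0 < Fintype.card (Function.fixedPoints f) := by
    rw [Nat.pos_iff_ne_zero]
    intro h0
    rw [h0] at h1
    exact h2 ((Nat.modEq_zero_iff_dvd).1 h1)
  obtain ⟨⟨⟨ψ, g, rfl⟩, hψ⟩⟩ := Fintype.card_pos_iff.1 h3
  have h4 : sg k (cj N g θ) = cj N g θ := congrArg Subtype.val hψ
  rw [sg_cj] at h4
  have h5 := congrArg (cj N g⁻¹) h4
  rwa [cj_inv_cj, cj_inv_cj] at h5

end Cfsg.Agent.Lib.GalFix
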