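import Cfsg.Agent.Lib.ChevTorus
import Cfsg.Agent.Lib.ChevSL2

set_option autoImplicit false

/-!
# Rank one moves in the big cell (helper40)
-/

namespace Cfsg.Agent.Lib.GauCell
open Cfsg.Lie Cfsg.Agent.Lib.ChevX Cfsg.Agent.Lib.ChevGood Cfsg.Agent.Lib.ChevRel Cfsg.Agent.Lib.ChevNPerm
  Cfsg.Agent.Lib.ChevTorus Cfsg.Agent.Lib.ChevBN Cfsg.Agent.Lib.SL2Pres Cfsg.Agent.Lib.ChevSL2
open scoped MatrixGroups Matrix

variable {D : ChevalleyDatum} {F : Type*} [Field F]

/-- the negative roots other than `-α_i` -/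
def negBut (D : ChevalleyDatum) (i : ℕ) : Set ℕ := {s | D.IsNegRoot s ∧ s ≠ D.neg (D.simple i)}

/-- the unipotent radical of the `i`-th minimal parabolic subgroup -/
def UU (D : ChevalleyDatum) (F : Type*) [Field F] (i : ℕ) : Subgroup (GL D.Idx F) := ChevU.XS D F (posBut D i)

/-- its opposite -/
def VV (D : ChevalleyDatum) (F : Type*) [Field F] (i : ℕ) : Subgroup (GL D.Idx F) := ChevU.XS D F (negBut D i)

section
variable (G : Good D)
include G

omit G in
theorem negBut_lt {i : ℕ} : ∀ s ∈ negBut D i, s < D.nroots := fun _ hs => hs.1.1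

theorem neg_mem_posBut {i s : ℕ} (hi : i < D.rank) (hs : s < D.nroots) : D.neg s ∈ posBut D i ↔ s ∈ negBut D i := by
  unfold posBut negBut
  simp only [Set.mem_ofPred_eq]
  rw [ChevU.isPos_neg_iff G hs]
  refine and_congr_right fun _ => not_congr ⟨fun h => ?_, fun h => ?_⟩
  · rw [← h, ChevU.neg_neg G hs]
  · rw [h, ChevU.neg_neg G (G.simple_lt i hi)]

theorem acts_negBut {i : ℕ} (hi : i < D.rank) : ChevU.Acts G {D.neg (D.simple i)} (negBut D i) := by
  intro r hr s hs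
  rw [Set.mem_singleton_iff] at hr
  subst hr
  have hp := G.simple_lt i hi
  have hsn := (neg_mem_posBut G hi hs.1.1).mpr hs
  obtain ⟨h1, h2⟩ := acts_posBut G hi (D.simple i) rfl (D.neg s) hsn
  refine ⟨?_, fun hne k hk a b ha hb hrv => ?_⟩
  · rintro rfl
    rw [ChevU.neg_neg G hp] at hsn
    exact h1 (by rw [ChevU.neg_neg G hp])
  · have h3 : D.neg s ≠ D.simple i := fun h => hne (by rw [← h, ChevU.neg_neg G hs.1.1])
    rw [← neg_mem_posBut G hi hk]
    refine h2 h3 (D.neg k) (ChevU.neg_lt G hk) a b ha hb fun l => ?_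
    have h4 := hrv l
    rw [G.rv_neg _ hp] at h4
    rw [G.rv_neg k hk, G.rv_neg s hs.1.1]
    linarith

theorem reflect_negBut {i : ℕ} (hi : i < D.rank) {s : ℕ} (hs : s ∈ negBut D i) : D.reflectRoot i s ∈ negBut D i := by
  have h1 := reflect_posBut G hi ((neg_mem_posBut G hi hs.1.1).mpr hs)
  rw [G.w_neg i hi s hs.1.1] at h1
  exact (neg_mem_posBut G hi (G.w_lt i hi s hs.1.1)).mp h1

theorem ng_mem_normalizer_VV {i : ℕ} (hi : i < D.rank) :
    ng D F (D.simple i) 1 ∈ Subgroup.normalizer (VV D F i : Set (GL D.Idx F)) := by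
  have key : ∀ x ∈ VV D F i, ng D F (D.simple i) 1 * x * (ng D F (D.simple i) 1)⁻¹ ∈ VV D F i := by
    intro x hx
    refine ChevU.conj_XS_mem (fun s hs u => ?_) hx
    rw [ChevRel.ng_simple_one_conj G hi hs.1.1]
    exact ChevU.xg_mem_XS (reflect_negBut G hi hs) _
  rw [Subgroup.mem_normalizer_iff]
  intro x
  refine ⟨key x, fun hx => ?_⟩
  have hsq := ChevN.ng_sq_mem G (F := F) (G.simple_lt i hi)
  have h1 := (Subgroup.mem_normalizer_iff.mp (ChevH.diagonalSubgroup_le_normalizer G negBut_lt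
    (Subgroup.inv_mem _ hsq)) _).mp (key _ hx)
  have h3 : (ng D F (D.simple i) 1 * ng D F (D.simple i) 1)⁻¹ * (ng D F (D.simple i) 1 *
      (ng D F (D.simple i) 1 * x * (ng D F (D.simple i) 1)⁻¹) * (ng D F (D.simple i) 1)⁻¹) *
      (ng D F (D.simple i) 1 * ng D F (D.simple i) 1)⁻¹⁻¹ = x := by group
  rwa [h3] at h1

/-- the rank one homomorphism -/
theorem exists_φ {i : ℕ} (hi : i < D.rank) : ∃ φ : SL(2, F) →* GL D.Idx F,
    (∀ t, φ (E t) = xg D F (D.simple i) t) ∧ (∀ t, φ (E' t) = xg D F (D.neg (D.simple i)) t) :=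
  let ⟨φ, h1, h2, _⟩ := exists_hom (isR1_simple G (F := F) hi)
  ⟨φ, h1, h2⟩

theorem negl (i : ℕ) (hi : i < D.rank) (t : F) :
    xg D F (D.neg (D.simple i)) t = ng D F (D.simple i) 1 * xg D F (D.simple i) (-t) * (ng D F (D.simple i) 1)⁻¹ := by
  rw [ng_conj_simple G hi, _root_.neg_neg]

theorem X_norm_UU {i : ℕ} (hi : i < D.rank) (t : F) :
    xg D F (D.simple i) t ∈ Subgroup.normalizer (UU D F i : Set (GL D.Idx F)) :=
  X_le_normalizer_posBut G hi (ChevU.xg_mem_XS (Set.mem_singleton _) t)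

theorem Y_norm_UU {i : ℕ} (hi : i < D.rank) (t : F) :
    xg D F (D.neg (D.simple i)) t ∈ Subgroup.normalizer (UU D F i : Set (GL D.Idx F)) := by
  rw [negl G i hi]
  exact mul_mem (mul_mem (ng_mem_normalizer_posBut G hi) (X_norm_UU G hi _)) (inv_mem (ng_mem_normalizer_posBut G hi))

theorem Y_norm_VV {i : ℕ} (hi : i < D.rank) (t : F) :
    xg D F (D.neg (D.simple i)) t ∈ Subgroup.normalizer (VV D F i : Set (GL D.Idx F)) :=
  ChevU.XS_le_normalizer G (fun r hr => by rw [Set.mem_singleton_iff.mp hr]; exact ChevU.neg_lt G (G.simple_lt i hi)) negBut_lt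
    (acts_negBut G hi) (ChevU.xg_mem_XS (Set.mem_singleton _) t)

theorem X_norm_VV {i : ℕ} (hi : i < D.rank) (t : F) :
    xg D F (D.simple i) t ∈ Subgroup.normalizer (VV D F i : Set (GL D.Idx F)) := by
  have h1 := ng_conj_neg_simple G (F := F) hi (-t)
  rw [_root_.neg_neg] at h1
  rw [← h1]
  exact mul_mem (mul_mem (ng_mem_normalizer_VV G hi) (Y_norm_VV G hi _)) (inv_mem (ng_mem_normalizer_VV G hi))

theorem H_norm_UU {i : ℕ} {h : GL D.Idx F} (hh : h ∈ D.diagonalSubgroup F) :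
    h ∈ Subgroup.normalizer (UU D F i : Set (GL D.Idx F)) :=
  ChevH.diagonalSubgroup_le_normalizer G posBut_lt hh

theorem H_norm_VV {i : ℕ} {h : GL D.Idx F} (hh : h ∈ D.diagonalSubgroup F) :
    h ∈ Subgroup.normalizer (VV D F i : Set (GL D.Idx F)) :=
  ChevH.diagonalSubgroup_le_normalizer G negBut_lt hh

omit G in
theorem SL2_induction {P : SL(2, F) → Prop} (h1 : P 1) (hX : ∀ t g, P g → P (E t * g)) (hY : ∀ t g, P g → P (E' t * g)) (g : SL(2, F)) : P g := by
  have hg : g ∈ Subgroup.closure (Set.range (E : F → SL(2, F)) ∪ Set.range E') := by rw [closure_SL2]; trivial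
  induction hg using Subgroup.closure_induction_left with
  | one => exact h1
  | mul_left x hx y _ ih =>
    rcases hx with ⟨t, rfl⟩ | ⟨t, rfl⟩
    · exact hX t y ih
    · exact hY t y ih
  | inv_mul_cancel x hx y _ ih =>
    have hS := isR1_SL2 (F := F)
    rcases hx with ⟨t, rfl⟩ | ⟨t, rfl⟩
    · rw [← hS.X_neg]; exact hX _ y ih
    · rw [← hS.Y_neg]; exact hY _ y ih

theorem φ_norm_UU {i : ℕ} (hi : i < D.rank) {φ : SL(2, F) →* GL D.Idx F} (h1 : ∀ t, φ (E t) = xg D F (D.simple i) t)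
    (h2 : ∀ t, φ (E' t) = xg D F (D.neg (D.simple i)) t) (Y : SL(2, F)) :
    φ Y ∈ Subgroup.normalizer (UU D F i : Set (GL D.Idx F)) := by
  induction Y using SL2_induction with
  | h1 => rw [map_one]; exact one_mem _
  | hX t g ih => rw [map_mul, h1]; exact mul_mem (X_norm_UU G hi t) ih
  | hY t g ih => rw [map_mul, h2]; exact mul_mem (Y_norm_UU G hi t) ih

theorem φ_norm_VV {i : ℕ} (hi : i < D.rank) {φ : SL(2, F) →* GL D.Idx F} (h1 : ∀ t, φ (E t) = xg D F (D.simple i) t)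
    (h2 : ∀ t, φ (E' t) = xg D F (D.neg (D.simple i)) t) (Y : SL(2, F)) :
    φ Y ∈ Subgroup.normalizer (VV D F i : Set (GL D.Idx F)) := by
  induction Y using SL2_induction with
  | h1 => rw [map_one]; exact one_mem _
  | hX t g ih => rw [map_mul, h1]; exact mul_mem (X_norm_VV G hi t) ih
  | hY t g ih => rw [map_mul, h2]; exact mul_mem (Y_norm_VV G hi t) ih

theorem φ_mem {i : ℕ} (hi : i < D.rank) {φ : SL(2, F) →* GL D.Idx F} (h1 : ∀ t, φ (E t) = xg D F (D.simple i) t)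
    (h2 : ∀ t, φ (E' t) = xg D F (D.neg (D.simple i)) t) (Y : SL(2, F)) : φ Y ∈ D.group F := by
  induction Y using SL2_induction with
  | h1 => rw [map_one]; exact one_mem _
  | hX t g ih => rw [map_mul, h1]; exact mul_mem (xg_mem_group G (G.simple_lt i hi) t) ih
  | hY t g ih => rw [map_mul, h2]; exact mul_mem (xg_mem_group G (ChevU.neg_lt G (G.simple_lt i hi)) t) ih

/-- `U = X_i U_i` -/
theorem exists_U_dec {i : ℕ} (hi : i < D.rank) {u : GL D.Idx F} (hu : u ∈ D.posUnipotent F) :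
    ∃ t : F, ∃ u' ∈ UU D F i, u = xg D F (D.simple i) t * u' := by
  rw [← posBut_sup G hi] at hu
  have h1 := Subgroup.coe_mul_of_right_le_normalizer_left (ChevU.XS D F (posBut D i)) (D.rootSubgroup F (D.simple i))
    (by rw [ChevU.rootSubgroup_eq G]; exact X_le_normalizer_posBut G hi)
  rw [← SetLike.mem_coe, h1, Set.mem_mul] at hu
  obtain ⟨v, hv, x, hx, rfl⟩ := hu
  obtain ⟨t, rfl⟩ := (ChevU.mem_rootSubgroup_iff G).mp hx
  refine ⟨t, (xg D F (D.simple i) t)⁻¹ * v * xg D F (D.simple i) t, ?_, by group⟩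
  have h2 := (Subgroup.mem_normalizer_iff.mp (inv_mem (X_norm_UU G hi t)) v).mp hv
  rwa [inv_inv] at h2

/-- `V = V_i X_{-i}` -/
theorem exists_V_dec {i : ℕ} (hi : i < D.rank) {v : GL D.Idx F} (hv : v ∈ D.negUnipotent F) :
    ∃ v' ∈ VV D F i, ∃ t : F, v = v' * xg D F (D.neg (D.simple i)) t := by
  have h0 : v ∈ VV D F i ⊔ D.rootSubgroup F (D.neg (D.simple i)) := by
    rw [ChevU.negUnipotent_eq G] at hv
    refine (ChevU.XS_le fun r hr t => ?_ : ChevU.XS D F {r | D.IsNegRoot r} ≤ _) hv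
    by_cases h : r = D.neg (D.simple i)
    · apply Subgroup.mem_sup_right
      rw [ChevU.rootSubgroup_eq G]
      exact ChevU.xg_mem_XS (Set.mem_singleton_iff.mpr h) t
    · exact Subgroup.mem_sup_left (ChevU.xg_mem_XS (show r ∈ negBut D i from ⟨hr, h⟩) t)
  have h1 := Subgroup.coe_mul_of_right_le_normalizer_left (VV D F i) (D.rootSubgroup F (D.neg (D.simple i)))
    (by
      intro x hx
      obtain ⟨t, rfl⟩ := (ChevU.mem_rootSubgroup_iff G).mp hx
      exact Y_norm_VV G hi t)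
  rw [← SetLike.mem_coe, h1, Set.mem_mul] at h0
  obtain ⟨v1, hv1, x, hx, rfl⟩ := h0
  obtain ⟨t, rfl⟩ := (ChevU.mem_rootSubgroup_iff G).mp hx
  exact ⟨v1, hv1, t, rfl⟩

theorem UU_le {i : ℕ} : UU D F i ≤ D.posUnipotent F := by
  rw [ChevU.posUnipotent_eq G]; exact ChevU.XS_mono fun r hr => hr.1

theorem VV_le {i : ℕ} : VV D F i ≤ D.negUnipotent F := by
  rw [ChevU.negUnipotent_eq G]; exact ChevU.XS_mono fun r hr => hr.1

/-! ### the torus acting on rank one -/

omit G in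
/-- conjugation by `diag(B, 1)` -/
def dl (B : F) (hB : B ≠ 0) (Z : SL(2, F)) : SL(2, F) :=
  ⟨!![Z.1 0 0, B * Z.1 0 1; B⁻¹ * Z.1 1 0, Z.1 1 1], by
    have h := Z.2
    rw [Matrix.det_fin_two] at h
    rw [Matrix.det_fin_two]
    simp only [Matrix.cons_val_zero, Matrix.cons_val_one, Matrix.of_apply, Matrix.cons_val', Matrix.cons_val_fin_one]
    field_simp
    linear_combination h⟩

omit G in
theorem dl_mul (B : F) (hB : B ≠ 0) (Y Z : SL(2, F)) : dl B hB (Y * Z) = dl B hB Y * dl B hB Z := by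
  apply Subtype.ext
  ext i j
  rw [Matrix.SpecialLinearGroup.coe_mul]
  fin_cases i <;> fin_cases j <;> simp [dl, Matrix.mul_apply, Fin.sum_univ_two] <;> field_simp

omit G in
theorem dl_E (B : F) (hB : B ≠ 0) (t : F) : dl B hB (E t) = E (B * t) := by
  apply Subtype.ext
  ext i j
  fin_cases i <;> fin_cases j <;> simp [dl]

omit G in
theorem dl_E' (B : F) (hB : B ≠ 0) (t : F) : dl B hB (E' t) = E' (B⁻¹ * t) := by
  apply Subtype.ext
  ext i j
  fin_cases i <;> fin_cases j <;> simp [dl]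

omit G in
theorem dl_one (B : F) (hB : B ≠ 0) : dl B hB (1 : SL(2, F)) = 1 := by
  apply Subtype.ext
  ext i j
  fin_cases i <;> fin_cases j <;> simp [dl]

theorem conj_φ {i : Fin D.rank} {φ : SL(2, F) →* GL D.Idx F} (h1 : ∀ t, φ (E t) = xg D F (D.simple i) t)
    (h2 : ∀ t, φ (E' t) = xg D F (D.neg (D.simple i)) t) {h : GL D.Idx F} (hh : h ∈ D.diagonalSubgroup F) (Y : SL(2, F)) :
    h * φ Y * h⁻¹ = φ (dl (rval h (simpF G i)) (rval_ne_zero G hh _) Y) := by
  have hn : rval h (negF G (simpF G i)) = (rval h (simpF G i))⁻¹ := by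
    rw [rval_prod G hh (negF G (simpF G i)), rval_prod G hh (simpF G i), ← Finset.prod_inv_distrib]
    refine Finset.prod_congr rfl fun j _ => ?_
    rw [rv_negF, zpow_neg]
  induction Y using SL2_induction with
  | h1 => rw [map_one, dl_one, map_one]; group
  | hX t g ih =>
    have h3 := conj_x G hh (simpF G i) t
    rw [dl_mul, map_mul, map_mul, dl_E, h1, h1, ← ih]
    have h4 : h * xg D F (D.simple i) t * h⁻¹ = xg D F (D.simple i) (rval h (simpF G i) * t) := h3
    rw [← h4]; group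
  | hY t g ih =>
    have h3 := conj_x G hh (negF G (simpF G i)) t
    rw [hn] at h3
    rw [dl_mul, map_mul, map_mul, dl_E', h2, h2, ← ih]
    have h4 : h * xg D F (D.neg (D.simple i)) t * h⁻¹ = xg D F (D.neg (D.simple i)) ((rval h (simpF G i))⁻¹ * t) := h3
    rw [← h4]; group

omit G in
/-- the big cell of `SL₂` -/
theorem SL2_big (Z : SL(2, F)) (hZ : Z.1 0 0 ≠ 0) :
    Z = E' (Z.1 1 0 / Z.1 0 0) * hh E E' (Z.1 0 0) * E (Z.1 0 1 / Z.1 0 0) := by
  apply Subtype.ext
  have hd := Z.2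
  rw [Matrix.det_fin_two] at hd
  rw [Matrix.SpecialLinearGroup.coe_mul, Matrix.SpecialLinearGroup.coe_mul, coe_hh hZ, coe_E, coe_E']
  ext i j
  fin_cases i <;> fin_cases j <;> simp [Matrix.mul_apply, Fin.sum_univ_two]
  · field_simp
  · field_simp
  · field_simp
    linear_combination hd

end

end Cfsg.Agent.Lib.GauCell
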