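import Cfsg.Agent.Lib.GauCell
import Cfsg.Agent.Lib.ChevStd

set_option autoImplicit false

/-!
# States in the big cell (helper40)
-/

namespace Cfsg.Agent.Lib.GauCell
open Cfsg.Lie Cfsg.Agent.Lib.ChevX Cfsg.Agent.Lib.ChevGood Cfsg.Agent.Lib.ChevRel Cfsg.Agent.Lib.ChevNPerm
  Cfsg.Agent.Lib.ChevTorus Cfsg.Agent.Lib.ChevBN Cfsg.Agent.Lib.SL2Pres Cfsg.Agent.Lib.ChevSL2
open scoped MatrixGroups Matrix
open Cfsg.Agent.Lib.ChevN (Valid wr nwd nwd_cons)

variable {D : ChevalleyDatum} {F : Type*} [Field F]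

/-- `g` is conjugate to an element of `V h U` -/
def St (D : ChevalleyDatum) (F : Type*) [Field F] (g h : GL D.Idx F) : Prop :=
  ∃ y ∈ D.group F, ∃ v ∈ D.negUnipotent F, ∃ u ∈ D.posUnipotent F, y * g * y⁻¹ = v * h * u

/-- ... with a noncentral component in the `i`-th Levi subgroup -/
def NC (G : Good D) (i : Fin D.rank) (g h : GL D.Idx F) : Prop :=
  ∃ y ∈ D.group F, ∃ v ∈ VV D F i, ∃ u ∈ UU D F i, ∃ c d : F,
    y * g * y⁻¹ = v * (xg D F (D.neg (D.simple i)) c * h * xg D F (D.simple i) d) * u ∧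
    (c ≠ 0 ∨ d ≠ 0 ∨ rval h (simpF G i) ≠ 1)

section
variable (G : Good D)
include G

omit G in
theorem hg_eq (i : ℕ) {φ : SL(2, F) →* GL D.Idx F} (h1 : ∀ t, φ (E t) = xg D F (D.simple i) t)
    (h2 : ∀ t, φ (E' t) = xg D F (D.neg (D.simple i)) t) (s : F) : φ (hh E E' s) = hg D F (D.simple i) s := by
  unfold hh SL2Pres.nn
  simp only [map_mul, h1, h2]
  rfl

/-- conjugation of the rank one component -/
theorem move_core {i : Fin D.rank} {φ : SL(2, F) →* GL D.Idx F} (h1 : ∀ t, φ (E t) = xg D F (D.simple i) t)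
    (h2 : ∀ t, φ (E' t) = xg D F (D.neg (D.simple i)) t) {h : GL D.Idx F} (hh' : h ∈ D.diagonalSubgroup F) (c d : F) (Y Z : SL(2, F))
    (hZ : Z = Y * (E' c * E (rval h (simpF G i) * d)) * dl (rval h (simpF G i)) (rval_ne_zero G hh' _) Y⁻¹) (hs : Z.1 0 0 ≠ 0) :
    φ Y * (xg D F (D.neg (D.simple i)) c * h * xg D F (D.simple i) d) * (φ Y)⁻¹ =
      xg D F (D.neg (D.simple i)) (Z.1 1 0 / Z.1 0 0) * (hg D F (D.simple i) (Z.1 0 0) * h) *
        xg D F (D.simple i) ((rval h (simpF G i))⁻¹ * (Z.1 0 1 / Z.1 0 0)) := by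
  set B := rval h (simpF G i) with hB
  have hB0 : B ≠ 0 := rval_ne_zero G hh' _
  have e1 := conj_φ G h1 h2 hh' (E d)
  rw [dl_E] at e1
  have e2 := conj_φ G h1 h2 hh' Y⁻¹
  have e3 := conj_φ G h1 h2 hh' (E (B⁻¹ * (Z.1 0 1 / Z.1 0 0)))
  rw [dl_E, mul_inv_cancel_left₀ hB0] at e3
  have e4 : φ Z * h = φ (E' (Z.1 1 0 / Z.1 0 0)) * (φ (hh E E' (Z.1 0 0)) * h) * φ (E (B⁻¹ * (Z.1 0 1 / Z.1 0 0))) := by
    conv_lhs => rw [SL2_big Z hs]
    rw [map_mul, map_mul, ← e3]; group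
  rw [← h1, ← h2, ← h1, ← h2, ← hg_eq i h1 h2, ← e4, hZ]
  rw [map_mul, map_mul, map_mul, ← e2, ← e1, map_inv]
  group

omit G in
/-- the entry to be prescribed -/
theorem Z00 (B : F) (hB : B ≠ 0) (c d : F) (Y : SL(2, F)) :
    (Y * (E' c * E (B * d)) * dl B hB Y⁻¹).1 0 0 =
      Y.1 1 1 * (Y.1 0 0 + Y.1 0 1 * c) - Y.1 1 0 * Y.1 0 0 * d - Y.1 1 0 * Y.1 0 1 * (B⁻¹ + c * d) := by
  rw [Matrix.SpecialLinearGroup.coe_mul, Matrix.SpecialLinearGroup.coe_mul, Matrix.SpecialLinearGroup.coe_mul]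
  have hY : (Y⁻¹).1 = !![Y.1 1 1, -Y.1 0 1; -Y.1 1 0, Y.1 0 0] := by
    have := Matrix.SpecialLinearGroup.SL2_inv_expl Y
    rw [this]
    rfl
  unfold dl
  simp only [hY, Matrix.mul_apply, Fin.sum_univ_two, coe_E, coe_E', Matrix.cons_val_zero, Matrix.cons_val_one, Matrix.of_apply,
    Matrix.cons_val', Matrix.cons_val_fin_one, Matrix.empty_val']
  field_simp
  ring

omit G in
/-- rank one: the diagonal entry can be prescribed in a noncentral class -/
theorem exists_Y (B : F) (hB : B ≠ 0) (c d s : F) (hn : c ≠ 0 ∨ d ≠ 0 ∨ B ≠ 1) :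
    ∃ Y : SL(2, F), (Y * (E' c * E (B * d)) * dl B hB Y⁻¹).1 0 0 = s := by
  simp only [Z00]
  by_cases hd : d = 0
  · by_cases hc : c = 0
    · have hB1 : 1 - B ≠ 0 := sub_ne_zero.mpr (by tauto)
      refine ⟨⟨!![1, 1; (B - s * B) / (1 - B), (1 - s * B) / (1 - B)], ?_⟩, ?_⟩
      · rw [Matrix.det_fin_two_of]; field_simp; ring
      · subst hc hd
        simp only [Matrix.cons_val_zero, Matrix.cons_val_one, Matrix.of_apply, Matrix.cons_val', Matrix.cons_val_fin_one]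
        field_simp
        ring
    · refine ⟨⟨!![0, 1; -1, (s - B⁻¹ - c * d) / c], ?_⟩, ?_⟩
      · rw [Matrix.det_fin_two_of]; ring
      · simp only [Matrix.cons_val_zero, Matrix.cons_val_one, Matrix.of_apply, Matrix.cons_val', Matrix.cons_val_fin_one]
        field_simp
        ring
  · refine ⟨⟨!![1, 0; (1 - s) / d, 1], ?_⟩, ?_⟩
    · rw [Matrix.det_fin_two_of]; ring
    · simp only [Matrix.cons_val_zero, Matrix.cons_val_one, Matrix.of_apply, Matrix.cons_val', Matrix.cons_val_fin_one]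
      field_simp
      ring

theorem simp_mem_U {i : Fin D.rank} (t : F) : xg D F (D.simple i) t ∈ D.posUnipotent F := by
  rw [ChevU.posUnipotent_eq G]
  exact ChevU.xg_mem_XS (show D.simple i ∈ {r | D.IsPosRoot r} from ChevN.simple_isPos G i.2) t

theorem neg_mem_V {i : Fin D.rank} (t : F) : xg D F (D.neg (D.simple i)) t ∈ D.negUnipotent F := by
  rw [ChevU.negUnipotent_eq G]
  exact ChevU.xg_mem_XS (show D.neg (D.simple i) ∈ {r | D.IsNegRoot r} from
    (ChevU.isNeg_neg_iff G (G.simple_lt i i.2)).mpr (ChevN.simple_isPos G i.2)) t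

/-- a state gives the noncentral state when the root value is not one -/
theorem St.nc {i : Fin D.rank} {g h : GL D.Idx F} (hs : St D F g h) (hv : rval h (simpF G i) ≠ 1) : NC G i g h := by
  obtain ⟨y, hy, v, hv', u, hu, e⟩ := hs
  obtain ⟨v, hv2, c, rfl⟩ := exists_V_dec G i.2 hv'
  obtain ⟨d, u, hu2, rfl⟩ := exists_U_dec G i.2 hu
  exact ⟨y, hy, v, hv2, u, hu2, c, d, by rw [e]; group, Or.inr (Or.inr hv)⟩

theorem NC.st {i : Fin D.rank} {g h : GL D.Idx F} (hs : NC G i g h) : St D F g h := by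
  obtain ⟨y, hy, v, hv, u, hu, c, d, e, -⟩ := hs
  exact ⟨y, hy, v * xg D F (D.neg (D.simple i)) c, mul_mem (VV_le G hv) (neg_mem_V G c),
    xg D F (D.simple i) d * u, mul_mem (simp_mem_U G d) (UU_le G hu), by rw [e]; group⟩

/-- moving in the direction of `α_i` -/
theorem NC.move {i : Fin D.rank} {g h : GL D.Idx F} (hh' : h ∈ D.diagonalSubgroup F) (hs : NC G i g h) {s : F} (hs0 : s ≠ 0) :
    St D F g (hg D F (D.simple i) s * h) := by
  obtain ⟨y, hy, v, hv, u, hu, c, d, e, hn⟩ := hs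
  obtain ⟨φ, h1, h2⟩ := exists_φ (F := F) G i.2
  obtain ⟨Y, hY⟩ := exists_Y (rval h (simpF G i)) (rval_ne_zero G hh' _) c d s hn
  obtain ⟨c', d', h3⟩ : ∃ c' d', φ Y * (xg D F (D.neg (D.simple i)) c * h * xg D F (D.simple i) d) * (φ Y)⁻¹ =
      xg D F (D.neg (D.simple i)) c' * (hg D F (D.simple i) s * h) * xg D F (D.simple i) d' := by
    have h3 := move_core G h1 h2 hh' c d Y _ rfl (by rw [hY]; exact hs0)
    rw [hY] at h3
    exact ⟨_, _, h3⟩
  have h4 := (Subgroup.mem_normalizer_iff.mp (φ_norm_VV G i.2 h1 h2 Y) v).mp hv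
  have h5 := (Subgroup.mem_normalizer_iff.mp (φ_norm_UU G i.2 h1 h2 Y) u).mp hu
  refine ⟨φ Y * y, mul_mem (φ_mem G i.2 h1 h2 Y) hy, _, mul_mem (VV_le G h4) (neg_mem_V G (i := i) c'), _,
    mul_mem (simp_mem_U G (i := i) d') (UU_le G h5), ?_⟩
  have h6 : φ Y * y * g * (φ Y * y)⁻¹ = (φ Y * v * (φ Y)⁻¹) *
      (φ Y * (xg D F (D.neg (D.simple i)) c * h * xg D F (D.simple i) d) * (φ Y)⁻¹) * (φ Y * u * (φ Y)⁻¹) := by
    have : φ Y * y * g * (φ Y * y)⁻¹ = φ Y * (y * g * y⁻¹) * (φ Y)⁻¹ := by group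
    rw [this, e]; group
  rw [h6, h3]
  simp only [mul_assoc]

/-! ### existence -/

/-- the big cell meets every conjugacy class -/
theorem exists_St [Finite F] (hc : Nat.card (D.group F) < 2 * (Nat.card (D.posUnipotent F) * Nat.card (D.borelSubgroup F)))
    {g : GL D.Idx F} (hg' : g ∈ D.group F) : ∃ h ∈ D.diagonalSubgroup F, St D F g h := by
  classical
  have hfin : Finite (GL D.Idx F) := by
    have : Finite (Matrix D.Idx D.Idx F) := inferInstanceAs (Finite (D.Idx → D.Idx → F))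
    exact Finite.of_injective (fun g : GL D.Idx F => (g : Matrix D.Idx D.Idx F)) Units.val_injective
  obtain ⟨w, hw, hl⟩ := ChevN.exists_longest G
  set n := nwd D F w with hn
  have hnG : n ∈ D.group F := N_le_group G (ChevN.nwd_mem_N G hw)
  let f : D.posUnipotent F × D.borelSubgroup F → D.group F := fun p => ⟨p.1 * n * p.2,
    mul_mem (mul_mem (U_le_group G p.1.2) hnG) (B_le_group G p.2.2)⟩
  have hf : Function.Injective f := by
    rintro ⟨u, b⟩ ⟨u', b'⟩ h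
    have h1 : (u : GL D.Idx F) * n * b = u' * n * b' := congrArg Subtype.val h
    have h2 : (b : GL D.Idx F) * (b' : GL D.Idx F)⁻¹ = n⁻¹ * ((u : GL D.Idx F)⁻¹ * u') * n := by
      have : (b : GL D.Idx F) = n⁻¹ * (u : GL D.Idx F)⁻¹ * (u * n * b) := by group
      rw [this, h1]; group
    have h3 := ChevStd.nwd_inv_conj_U G hw hl (mul_mem (inv_mem u.2) u'.2)
    rw [← hn, ← h2] at h3
    have h4 : (b : GL D.Idx F) * (b' : GL D.Idx F)⁻¹ ∈ D.borelSubgroup F ⊓ D.negUnipotent F := Subgroup.mem_inf.mpr ⟨Subgroup.mul_mem _ b.2 (Subgroup.inv_mem _ b'.2), h3⟩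
    rw [ChevH.B_inf_V G, Subgroup.mem_bot] at h4
    have h5 : b = b' := Subtype.ext (mul_inv_eq_one.mp h4)
    subst h5
    have h6 : (u : GL D.Idx F) = u' := mul_right_cancel (mul_right_cancel h1)
    exact Prod.ext (Subtype.ext h6) rfl
  -- two translates meet
  have hmeet : ∃ p p', (f p : GL D.Idx F) = g⁻¹ * f p' := by
    by_contra hno
    push Not at hno
    let f2 : (D.posUnipotent F × D.borelSubgroup F) ⊕ (D.posUnipotent F × D.borelSubgroup F) → D.group F :=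
      Sum.elim f fun p => (⟨g, hg'⟩ : D.group F)⁻¹ * f p
    have hf2 : Function.Injective f2 := by
      rintro (a | a) (b | b) h
      · exact congrArg Sum.inl (hf h)
      · exact absurd (congrArg Subtype.val h) (hno a b)
      · exact absurd (congrArg Subtype.val h).symm (hno b a)
      · exact congrArg Sum.inr (hf (mul_left_cancel h))
    have h7 := Nat.card_le_card_of_injective f2 hf2
    rw [Nat.card_sum, Nat.card_prod] at h7
    omega
  obtain ⟨⟨u, b⟩, ⟨u', b'⟩, h⟩ := hmeet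
  have h8 : (u : GL D.Idx F) * n * b = g⁻¹ * (u' * n * b') := h
  have h9 : g = u' * n * (b' * (b : GL D.Idx F)⁻¹) * n⁻¹ * (u : GL D.Idx F)⁻¹ := by
    have : g = (u' * n * b') * (g⁻¹ * (u' * n * b'))⁻¹ := by group
    rw [this, ← h8]; group
  obtain ⟨u2, hu2, k, hk, h10⟩ := (ChevH.mem_borel_iff G).mp (mul_mem b'.2 (inv_mem b.2))
  have hk' : n * k * n⁻¹ ∈ D.diagonalSubgroup F := conj_mem_diag G (ChevN.nwd_mem_N G hw) hk
  refine ⟨n * k * n⁻¹, hk', (u' : GL D.Idx F)⁻¹, inv_mem (U_le_group G u'.2), n * u2 * n⁻¹, ChevStd.nwd_conj_U G hw hl hu2,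
    (u : GL D.Idx F)⁻¹ * u', mul_mem (inv_mem u.2) u'.2, ?_⟩
  rw [inv_inv, h9, h10]
  group

/-- a nontrivial element of a group with trivial centre has a noncentral state -/
theorem exists_NC [Finite F] (hc : Nat.card (D.group F) < 2 * (Nat.card (D.posUnipotent F) * Nat.card (D.borelSubgroup F)))
    {g : GL D.Idx F} (hg' : g ∈ D.group F) (hg1 : g ≠ 1) : ∃ i : Fin D.rank, ∃ h ∈ D.diagonalSubgroup F, NC G i g h := by
  by_contra hno
  push Not at hno
  obtain ⟨h, hh', y, hy, v, hv, u, hu, e⟩ := exists_St G hc hg'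
  -- every state is central
  have key : ∀ y ∈ D.group F, ∀ v ∈ D.negUnipotent F, ∀ u ∈ D.posUnipotent F, ∀ h ∈ D.diagonalSubgroup F,
      y * g * y⁻¹ = v * h * u → ∀ i : Fin D.rank, v ∈ VV D F i ∧ u ∈ UU D F i ∧ rval h (simpF G i) = 1 := by
    intro y hy v hv u hu h hh' e i
    obtain ⟨v, hv2, c, rfl⟩ := exists_V_dec G i.2 hv
    obtain ⟨d, u, hu2, rfl⟩ := exists_U_dec G i.2 hu
    have h1 : ¬ (c ≠ 0 ∨ d ≠ 0 ∨ rval h (simpF G i) ≠ 1) := fun h2 =>
      hno i h hh' ⟨y, hy, v, hv2, u, hu2, c, d, by rw [e]; group, h2⟩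
    push Not at h1
    obtain ⟨rfl, rfl, h3⟩ := h1
    rw [xg_zero G, xg_zero G, mul_one, one_mul]
    exact ⟨hv2, hu2, h3⟩
  have hh1 : h = 1 := by
    refine ext_rval G hh' (one_mem _) fun s => ?_
    rw [rval_prod G hh', rval_one G]
    exact Finset.prod_eq_one fun j _ => by rw [(key y hy v hv u hu h hh' e j).2.2, one_zpow]
  subst hh1
  -- propagate
  have prop : ∀ w : List ℕ, Valid D w → nwd D F w * v * (nwd D F w)⁻¹ ∈ D.negUnipotent F ∧
      nwd D F w * u * (nwd D F w)⁻¹ ∈ D.posUnipotent F := by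
    intro w
    induction w with
    | nil => intro _; simpa using ⟨hv, hu⟩
    | cons i w ih =>
      intro hw
      obtain ⟨h1, h2⟩ := ih hw.cons.2
      have hi := hw.cons.1
      set m := nwd D F w with hm
      have hmG : m ∈ D.group F := N_le_group G (ChevN.nwd_mem_N G hw.cons.2)
      have h3 := key (m * y) (mul_mem hmG hy) _ h1 _ h2 1 (one_mem _) (by
        have : m * y * g * (m * y)⁻¹ = m * (y * g * y⁻¹) * m⁻¹ := by group
        rw [this, e]; group) ⟨i, hi⟩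
      have h4 : nwd D F (i :: w) = ng D F (D.simple i) 1 * m := by rw [nwd_cons]
      have h5 := (Subgroup.mem_normalizer_iff.mp (ng_mem_normalizer_VV G (F := F) hi) _).mp h3.1
      have h6 := (Subgroup.mem_normalizer_iff.mp (ng_mem_normalizer_posBut G (F := F) hi) _).mp h3.2.1
      constructor
      · have : nwd D F (i :: w) * v * (nwd D F (i :: w))⁻¹ = ng D F (D.simple i) 1 * (m * v * m⁻¹) * (ng D F (D.simple i) 1)⁻¹ := by
          rw [h4]; group
        rw [this]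
        exact VV_le G h5
      · have : nwd D F (i :: w) * u * (nwd D F (i :: w))⁻¹ = ng D F (D.simple i) 1 * (m * u * m⁻¹) * (ng D F (D.simple i) 1)⁻¹ := by
          rw [h4]; group
        rw [this]
        exact UU_le G (i := i) h6
  obtain ⟨w, hw, hl⟩ := ChevN.exists_longest G
  obtain ⟨h1, h2⟩ := prop w hw
  have h3 := ChevStd.nwd_conj_V G hw hl hv
  have h4 := ChevStd.nwd_conj_U G hw hl hu
  have h5 : nwd D F w * v * (nwd D F w)⁻¹ = 1 := by
    have : nwd D F w * v * (nwd D F w)⁻¹ ∈ D.borelSubgroup F ⊓ D.negUnipotent F := ⟨ChevH.U_le_B h3, h1⟩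
    rwa [ChevH.B_inf_V G, Subgroup.mem_bot] at this
  have h6 : nwd D F w * u * (nwd D F w)⁻¹ = 1 := by
    have : nwd D F w * u * (nwd D F w)⁻¹ ∈ D.borelSubgroup F ⊓ D.negUnipotent F := ⟨ChevH.U_le_B h2, h4⟩
    rwa [ChevH.B_inf_V G, Subgroup.mem_bot] at this
  have h7 : v = 1 := by
    have := congrArg (fun x => (nwd D F w)⁻¹ * x * nwd D F w) h5
    simpa [mul_assoc] using this
  have h8 : u = 1 := by
    have := congrArg (fun x => (nwd D F w)⁻¹ * x * nwd D F w) h6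
    simpa [mul_assoc] using this
  rw [h7, h8] at e
  apply hg1
  have : y * g * y⁻¹ = 1 := by rw [e]; group
  have := congrArg (fun x => y⁻¹ * x * y) this
  simpa [mul_assoc] using this

end

/-! ### fixed point free cosets -/

/-- if `x` normalizes `K` and has no fixed points on `K` then `x K` is one `K`-class -/
theorem fpf {Γ : Type*} [Group Γ] (K : Subgroup Γ) [Finite K] {x : Γ} (hx : x ∈ Subgroup.normalizer (K : Set Γ))
    (hf : ∀ k ∈ K, x * k * x⁻¹ = k → k = 1) : ∀ k ∈ K, ∃ a ∈ K, a * x * a⁻¹ = x * k := by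
  intro k hk
  have hn : ∀ a : K, x⁻¹ * a * x * (a : Γ)⁻¹ ∈ K := fun a => by
    refine mul_mem ?_ (inv_mem a.2)
    have := (Subgroup.mem_normalizer_iff.mp (inv_mem hx) a).mp a.2
    rwa [inv_inv] at this
  let f : K → K := fun a => ⟨x⁻¹ * a * x * (a : Γ)⁻¹, hn a⟩
  have hinj : Function.Injective f := by
    intro a b h
    have h1 : x⁻¹ * a * x * (a : Γ)⁻¹ = x⁻¹ * b * x * (b : Γ)⁻¹ := congrArg Subtype.val h
    have h2 : (a : Γ) * x * (a : Γ)⁻¹ = b * x * (b : Γ)⁻¹ := by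
      calc (a : Γ) * x * (a : Γ)⁻¹ = x * (x⁻¹ * a * x * (a : Γ)⁻¹) := by group
        _ = x * (x⁻¹ * b * x * (b : Γ)⁻¹) := by rw [h1]
        _ = b * x * (b : Γ)⁻¹ := by group
    have h6 : ((b : Γ)⁻¹ * a) * x = x * ((b : Γ)⁻¹ * a) := by
      calc ((b : Γ)⁻¹ * a) * x = (b : Γ)⁻¹ * (a * x * (a : Γ)⁻¹) * a := by group
        _ = (b : Γ)⁻¹ * (b * x * (b : Γ)⁻¹) * a := by rw [h2]
        _ = x * ((b : Γ)⁻¹ * a) := by group
    have h3 := hf ((b : Γ)⁻¹ * a) (mul_mem (inv_mem b.2) a.2) (by rw [← h6]; group)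
    exact (Subtype.ext (inv_mul_eq_one.mp h3)).symm
  obtain ⟨a, ha⟩ := (Finite.injective_iff_surjective.mp hinj) ⟨k, hk⟩
  refine ⟨a, a.2, ?_⟩
  have h1 : x⁻¹ * a * x * (a : Γ)⁻¹ = k := congrArg Subtype.val ha
  rw [← h1]; group

end Cfsg.Agent.Lib.GauCell
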