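import Cfsg.Agent.Lib.GauW

set_option autoImplicit false

/-!
# Bad states of G2(4) (helper40)
-/

namespace Cfsg.Agent.Lib.GauCell
open Cfsg.Lie Cfsg.Agent.Lib.ChevX Cfsg.Agent.Lib.ChevGood Cfsg.Agent.Lib.ChevRel Cfsg.Agent.Lib.ChevNPerm
  Cfsg.Agent.Lib.ChevTorus Cfsg.Agent.Lib.ChevBN Cfsg.Agent.Lib.SL2Pres Cfsg.Agent.Lib.ChevSL2 Cfsg.Agent.Lib.ChevClosed
open scoped MatrixGroups Matrix

variable {F : Type*} [Field F]

/-- the component at `-β` -/
def CV (v : GLI F) (t : F) : Prop := v * (xg chevG2 F 5 t)⁻¹ ∈ VV chevG2 F 1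
/-- the component at `β` -/
def CU (u : GLI F) (t : F) : Prop := (xg chevG2 F 6 t)⁻¹ * u ∈ UU chevG2 F 1

theorem nV (t : F) : xg chevG2 F 5 t ∈ Subgroup.normalizer (VV chevG2 F 1 : Set (GLI F)) := Y_norm_VV GG (i := 1) (by decide) t
theorem nU (t : F) : xg chevG2 F 6 t ∈ Subgroup.normalizer (UU chevG2 F 1 : Set (GLI F)) := X_norm_UU GG (i := 1) (by decide) t

theorem CV.mul {v w : GLI F} {s t : F} (h1 : CV v s) (h2 : CV w t) : CV (v * w) (s + t) := by
  unfold CV at *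
  have h3 := (Subgroup.mem_normalizer_iff.mp (nV s) _).mp h2
  have h4 : v * w * (xg chevG2 F 5 (s + t))⁻¹ = (v * (xg chevG2 F 5 s)⁻¹) * (xg chevG2 F 5 s * (w * (xg chevG2 F 5 t)⁻¹) * (xg chevG2 F 5 s)⁻¹) := by
    rw [← xg_add GG]; group
  rw [h4]
  exact mul_mem h1 h3

theorem CV.inv {v : GLI F} {s : F} (h1 : CV v s) : CV v⁻¹ (-s) := by
  unfold CV at *
  have h3 := (Subgroup.mem_normalizer_iff.mp (inv_mem (nV s)) _).mp (inv_mem h1)
  have h4 : v⁻¹ * (xg chevG2 F 5 (-s))⁻¹ = (xg chevG2 F 5 s)⁻¹ * (v * (xg chevG2 F 5 s)⁻¹)⁻¹ * (xg chevG2 F 5 s)⁻¹⁻¹ := by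
    rw [xg_neg GG]; group
  rw [h4]
  exact h3

theorem CU.mul {v w : GLI F} {s t : F} (h1 : CU v s) (h2 : CU w t) : CU (v * w) (s + t) := by
  unfold CU at *
  have h3 := (Subgroup.mem_normalizer_iff.mp (inv_mem (nU t)) _).mp h1
  have h4 : (xg chevG2 F 6 (s + t))⁻¹ * (v * w) = ((xg chevG2 F 6 t)⁻¹ * ((xg chevG2 F 6 s)⁻¹ * v) * (xg chevG2 F 6 t)⁻¹⁻¹) * ((xg chevG2 F 6 t)⁻¹ * w) := by
    rw [← xg_add GG]; group
  rw [h4]
  exact mul_mem h3 h2

theorem CU.inv {v : GLI F} {s : F} (h1 : CU v s) : CU v⁻¹ (-s) := by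
  unfold CU at *
  have h3 := (Subgroup.mem_normalizer_iff.mp (nU s) _).mp (inv_mem h1)
  have h4 : (xg chevG2 F 6 (-s))⁻¹ * v⁻¹ = xg chevG2 F 6 s * ((xg chevG2 F 6 s)⁻¹ * v)⁻¹ * (xg chevG2 F 6 s)⁻¹ := by
    rw [xg_neg GG]; group
  rw [h4]
  exact h3

theorem CV_zero {v : GLI F} (h : v ∈ VV chevG2 F 1) : CV v 0 := by
  unfold CV; rw [xg_zero GG, inv_one, mul_one]; exact h

theorem CU_zero {v : GLI F} (h : v ∈ UU chevG2 F 1) : CU v 0 := by
  unfold CU; rw [xg_zero GG, inv_one, one_mul]; exact h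

theorem CV_x5 (t : F) : CV (xg chevG2 F 5 t) t := by
  unfold CV; rw [mul_inv_cancel]; exact one_mem _

theorem CV_x {s : ℕ} (h : s < 5) (t : F) : CV (xg chevG2 F s t) 0 := by
  apply CV_zero
  refine ChevU.xg_mem_XS ?_ t
  have key : ∀ s < 5, chevG2.IsNegRoot s ∧ s ≠ chevG2.neg (chevG2.simple 1) := by decide
  exact key s h

theorem CU_x7 (t : F) : CU (xg chevG2 F 7 t) 0 := by
  apply CU_zero
  refine ChevU.xg_mem_XS ?_ t
  have key : chevG2.IsPosRoot 7 ∧ 7 ≠ chevG2.simple 1 := by decide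
  exact key

theorem exists_CV {v : GLI F} (h : v ∈ chevG2.negUnipotent F) : ∃ t, CV v t := by
  obtain ⟨v, hv, t, rfl⟩ := exists_V_dec GG (i := 1) (by decide) h
  refine ⟨t, ?_⟩
  unfold CV
  have e : chevG2.neg (chevG2.simple 1) = 5 := by decide
  rw [e, mul_inv_cancel_right]; exact hv

theorem exists_CU {v : GLI F} (h : v ∈ chevG2.posUnipotent F) : ∃ t, CU v t := by
  obtain ⟨t, v, hv, rfl⟩ := exists_U_dec GG (i := 1) (by decide) h
  refine ⟨t, ?_⟩
  unfold CU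
  have e : chevG2.simple 1 = 6 := by decide
  rw [e, inv_mul_cancel_left]; exact hv

theorem x5_VV {t : F} (h : xg chevG2 F 5 t ∈ VV chevG2 F 1) : t = 0 := by
  have h1 := (Subgroup.mem_normalizer_iff.mp (ng_mem_normalizer_VV GG (F := F) (i := 1) (by decide)) _).mp h
  have h2 := ng_conj_neg_simple GG (F := F) (i := 1) (by decide) t
  have e : chevG2.neg (chevG2.simple 1) = 5 := by decide
  rw [e] at h2
  rw [h2] at h1
  have h3 : xg chevG2 F (chevG2.simple 1) (-t) ∈ chevG2.borelSubgroup F ⊓ chevG2.negUnipotent F :=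
    Subgroup.mem_inf.mpr ⟨ChevH.U_le_B (simp_mem_U GG (i := b0) (-t)), VV_le GG h1⟩
  rw [ChevH.B_inf_V GG, Subgroup.mem_bot] at h3
  have h4 := (xg_eq_one_iff GG (show chevG2.simple 1 < chevG2.nroots by decide) (-t)).mp h3
  exact neg_eq_zero.mp h4

theorem x6_UU {t : F} (h : xg chevG2 F 6 t ∈ UU chevG2 F 1) : t = 0 := by
  have h1 := (Subgroup.mem_normalizer_iff.mp (ng_mem_normalizer_posBut GG (F := F) (i := 1) (by decide)) _).mp h
  have h2 := ng_conj_simple GG (F := F) (i := 1) (by decide) t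
  have e : chevG2.simple 1 = 6 := by decide
  have h1' : ng chevG2 F (chevG2.simple 1) 1 * xg chevG2 F (chevG2.simple 1) t * (ng chevG2 F (chevG2.simple 1) 1)⁻¹ ∈ UU chevG2 F 1 := by
    rw [e] at h1 ⊢; exact h1
  rw [h2] at h1'
  have h3 : xg chevG2 F (chevG2.neg (chevG2.simple 1)) (-t) ∈ chevG2.borelSubgroup F ⊓ chevG2.negUnipotent F :=
    Subgroup.mem_inf.mpr ⟨ChevH.U_le_B (UU_le GG h1'), neg_mem_V GG (i := b0) (-t)⟩
  rw [ChevH.B_inf_V GG, Subgroup.mem_bot] at h3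
  have h4 := (xg_eq_one_iff GG (show chevG2.neg (chevG2.simple 1) < chevG2.nroots by decide) (-t)).mp h3
  exact neg_eq_zero.mp h4

theorem CV.unique {v : GLI F} {s t : F} (h1 : CV v s) (h2 : CV v t) : s = t := by
  have h3 := h1.inv.mul h2
  rw [inv_mul_cancel] at h3
  unfold CV at h3
  rw [one_mul, ← xg_neg GG] at h3
  have h4 := x5_VV h3
  linear_combination h4

theorem CU.unique {v : GLI F} {s t : F} (h1 : CU v s) (h2 : CU v t) : s = t := by
  have h3 := h1.inv.mul h2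
  rw [inv_mul_cancel] at h3
  unfold CU at h3
  rw [mul_one, ← xg_neg GG] at h3
  have h4 := x6_UU h3
  linear_combination h4

/-! ### the linear relation -/

theorem reflect_tab : ∀ s < 12, chevG2.reflectRoot 0 s = [0, 5, 3, 2, 7, 1, 10, 4, 9, 8, 6, 11].getD s 0 := by decide

theorem eta_one (h2 : (2 : F) = 0) {s : ℕ} (hs : s < 12) : ((GG.η 0 s : ℤ) : F) = 1 := by
  rcases GG.η_sq 0 (by decide) s hs with h | h
  · rw [h]; simp
  · rw [h]; push_cast; linear_combination -h2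

theorem n_conj0 (h2 : (2 : F) = 0) {s : ℕ} (hs : s < 12) (t : F) : ng chevG2 F 7 1 * xg chevG2 F s t * (ng chevG2 F 7 1)⁻¹ =
    xg chevG2 F ([0, 5, 3, 2, 7, 1, 10, 4, 9, 8, 6, 11].getD s 0) t := by
  have h := ng_simple_one_conj GG (i := 0) (s := s) (by decide) hs t
  rw [reflect_tab s hs, eta_one h2 hs, one_mul] at h
  exact h

theorem relation [Fintype F] (h2 : (2 : F) = 0) (s1 : ∑ r : F, r = 0) (s2 : ∑ r : F, r ^ 2 = 0) (s3 : ∑ r : F, r ^ 3 = 1)
    (s0 : (Fintype.card F : F) = 0) {v : GLI F} (hv : v ∈ VV chevG2 F 0) :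
    ∃ c : F → F, ∃ c' : F, (∀ r, CV (xg chevG2 F 7 r * v * (xg chevG2 F 7 r)⁻¹) (c r)) ∧
      CV (ng chevG2 F 7 1 * v * (ng chevG2 F 7 1)⁻¹) c' ∧ ∑ r : F, c r + c' = 0 := by
  unfold VV ChevU.XS at hv
  induction hv using Subgroup.closure_induction with
  | mem x hx =>
    obtain ⟨s, hs, u, rfl⟩ := hx
    have hs5 : s = 0 ∨ s = 1 ∨ s = 2 ∨ s = 3 ∨ s = 5 := by
      have hlt : s < 12 := negBut_lt s hs
      have key : ∀ s < 12, (chevG2.IsNegRoot s ∧ s ≠ chevG2.neg (chevG2.simple 0)) → s = 0 ∨ s = 1 ∨ s = 2 ∨ s = 3 ∨ s = 5 := by decide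
      exact key s hlt hs
    rcases hs5 with rfl | rfl | rfl | rfl | rfl
    · refine ⟨fun _ => 0, 0, fun r => ?_, ?_, by simp⟩
      · rw [xconj_nil (r := 7) (s := 0) (by decide) (by decide) (by decide) (by decide) (by decide +kernel)]
        exact CV_x (by norm_num) u
      · rw [n_conj0 h2 (by norm_num)]
        exact CV_x (by norm_num) u
    · refine ⟨fun r => -(r ^ 3 * u), u, fun r => ?_, ?_, ?_⟩
      · rw [xconj (r := 7) (s := 1) (by decide) (by decide) (by decide) (by decide)]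
        have c1 : chevG2.commTerms 7 1 = [(2, -1, 1, 1), (3, -1, 2, 1), (5, -1, 3, 1), (0, -1, 3, 2)] := by decide +kernel
        unfold ChevalleyDatum.commWord
        rw [c1]
        unfold wg
        simp only [List.map_cons, List.map_nil, List.prod_cons, List.prod_nil, mul_one]
        have := (CV_x (F := F) (s := 1) (by norm_num) u).mul ((CV_x (F := F) (s := 2) (by norm_num) (((-1 : ℤ) : F) * (- -r) ^ 1 * u ^ 1)).mul
          ((CV_x (F := F) (s := 3) (by norm_num) (((-1 : ℤ) : F) * (- -r) ^ 2 * u ^ 1)).mul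
            ((CV_x5 (((-1 : ℤ) : F) * (- -r) ^ 3 * u ^ 1)).mul (CV_x (F := F) (s := 0) (by norm_num) (((-1 : ℤ) : F) * (- -r) ^ 3 * u ^ 2)))))
        have e : 0 + (0 + (0 + (((-1 : ℤ) : F) * (- -r) ^ 3 * u ^ 1 + 0))) = -(r ^ 3 * u) := by push_cast; ring
        rw [e] at this
        exact this
      · rw [n_conj0 h2 (by norm_num)]
        exact CV_x5 u
      · rw [Finset.sum_neg_distrib, ← Finset.sum_mul, s3]; ring
    · refine ⟨fun r => 3 * r ^ 2 * u, 0, fun r => ?_, ?_, ?_⟩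
      · rw [xconj (r := 7) (s := 2) (by decide) (by decide) (by decide) (by decide)]
        have c1 : chevG2.commTerms 7 2 = [(3, 2, 1, 1), (5, 3, 2, 1), (0, -3, 1, 2)] := by decide +kernel
        unfold ChevalleyDatum.commWord
        rw [c1]
        unfold wg
        simp only [List.map_cons, List.map_nil, List.prod_cons, List.prod_nil, mul_one]
        have := (CV_x (F := F) (s := 2) (by norm_num) u).mul ((CV_x (F := F) (s := 3) (by norm_num) (((2 : ℤ) : F) * (- -r) ^ 1 * u ^ 1)).mul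
            ((CV_x5 (((3 : ℤ) : F) * (- -r) ^ 2 * u ^ 1)).mul (CV_x (F := F) (s := 0) (by norm_num) (((-3 : ℤ) : F) * (- -r) ^ 1 * u ^ 2))))
        have e : 0 + (0 + (((3 : ℤ) : F) * (- -r) ^ 2 * u ^ 1 + 0)) = 3 * r ^ 2 * u := by push_cast; ring
        rw [e] at this
        exact this
      · rw [n_conj0 h2 (by norm_num)]
        exact CV_x (by norm_num) u
      · rw [← Finset.sum_mul, ← Finset.mul_sum, s2]; ring
    · refine ⟨fun r => 3 * r * u, 0, fun r => ?_, ?_, ?_⟩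
      · rw [xconj (r := 7) (s := 3) (by decide) (by decide) (by decide) (by decide)]
        have c1 : chevG2.commTerms 7 3 = [(5, 3, 1, 1)] := by decide +kernel
        unfold ChevalleyDatum.commWord
        rw [c1]
        unfold wg
        simp only [List.map_cons, List.map_nil, List.prod_cons, List.prod_nil, mul_one]
        have := (CV_x (F := F) (s := 3) (by norm_num) u).mul (CV_x5 (((3 : ℤ) : F) * (- -r) ^ 1 * u ^ 1))
        have e : 0 + (((3 : ℤ) : F) * (- -r) ^ 1 * u ^ 1) = 3 * r * u := by push_cast; ring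
        rw [e] at this
        exact this
      · rw [n_conj0 h2 (by norm_num)]
        exact CV_x (by norm_num) u
      · rw [← Finset.sum_mul, ← Finset.mul_sum, s1]; ring
    · refine ⟨fun _ => u, 0, fun r => ?_, ?_, ?_⟩
      · rw [xconj_nil (r := 7) (s := 5) (by decide) (by decide) (by decide) (by decide) (by decide +kernel)]
        exact CV_x5 u
      · rw [n_conj0 h2 (by norm_num)]
        exact CV_x (by norm_num) u
      · rw [Finset.sum_const, Finset.card_univ, nsmul_eq_mul, s0]; ring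
  | one =>
    refine ⟨fun _ => 0, 0, fun r => ?_, ?_, by simp⟩
    · rw [mul_one, mul_inv_cancel]; exact CV_zero (one_mem _)
    · rw [mul_one, mul_inv_cancel]; exact CV_zero (one_mem _)
  | mul x y _ _ hx hy =>
    obtain ⟨c, c', h1, h3, h4⟩ := hx
    obtain ⟨d, d', h1', h3', h4'⟩ := hy
    refine ⟨fun r => c r + d r, c' + d', fun r => ?_, ?_, ?_⟩
    · rw [← conj_mul']; exact (h1 r).mul (h1' r)
    · rw [← conj_mul']; exact h3.mul h3'
    · rw [Finset.sum_add_distrib]; linear_combination h4 + h4'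
  | inv x _ hx =>
    obtain ⟨c, c', h1, h3, h4⟩ := hx
    refine ⟨fun r => -c r, -c', fun r => ?_, ?_, ?_⟩
    · have := (h1 r).inv
      have e : (xg chevG2 F 7 r * x * (xg chevG2 F 7 r)⁻¹)⁻¹ = xg chevG2 F 7 r * x⁻¹ * (xg chevG2 F 7 r)⁻¹ := by group
      rw [← e]; exact this
    · have := h3.inv
      have e : (ng chevG2 F 7 1 * x * (ng chevG2 F 7 1)⁻¹)⁻¹ = ng chevG2 F 7 1 * x⁻¹ * (ng chevG2 F 7 1)⁻¹ := by group
      rw [← e]; exact this
    · rw [Finset.sum_neg_distrib]; linear_combination -h4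

end Cfsg.Agent.Lib.GauCell
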