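import Cfsg.Agent.Lib.GauF4

set_option autoImplicit false

/-!
# Elimination of bad states of G2(4) (helper40)
-/

namespace Cfsg.Agent.Lib.GauCell
open Cfsg.Lie Cfsg.Agent.Lib.ChevX Cfsg.Agent.Lib.ChevGood Cfsg.Agent.Lib.ChevRel Cfsg.Agent.Lib.ChevNPerm
  Cfsg.Agent.Lib.ChevTorus Cfsg.Agent.Lib.ChevBN Cfsg.Agent.Lib.SL2Pres Cfsg.Agent.Lib.ChevSL2 Cfsg.Agent.Lib.ChevClosed
open scoped MatrixGroups Matrix

variable {F : Type*} [Field F]

/-- representatives of the points of the projective line -/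
def row (P : Option F) : F × F := match P with
  | none => (0, 1)
  | some r => (1, r)

theorem row_ne (P : Option F) : (row P).1 ≠ 0 ∨ (row P).2 ≠ 0 := by
  cases P with
  | none => right; exact one_ne_zero
  | some r => left; exact one_ne_zero

theorem row_unique {x y : F} (hxy : x ≠ 0 ∨ y ≠ 0) {P Q : Option F} (hP : x * (row P).1 + y * (row P).2 = 0)
    (hQ : x * (row Q).1 + y * (row Q).2 = 0) : P = Q := by
  cases P with
  | none =>
    cases Q with
    | none => rfl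
    | some s =>
      simp only [row, mul_zero, mul_one, zero_add] at hP hQ
      rw [hP, zero_mul, add_zero] at hQ
      tauto
  | some r =>
    cases Q with
    | none =>
      simp only [row, mul_zero, mul_one, zero_add] at hP hQ
      rw [hQ, zero_mul, add_zero] at hP
      tauto
    | some s =>
      simp only [row, mul_one] at hP hQ
      by_cases hy : y = 0
      · rw [hy, zero_mul, add_zero] at hP; tauto
      · have : r = s := mul_left_cancel₀ hy (by linear_combination hP - hQ)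
        rw [this]

theorem exists_pt [Fintype F] (h4 : 4 ≤ Fintype.card F) (x y : Fin 4 → F) (hxy : ∀ i, x i ≠ 0 ∨ y i ≠ 0) :
    ∃ Q : Option F, ∀ i, x i * (row Q).1 + y i * (row Q).2 ≠ 0 := by
  classical
  by_contra hno
  push Not at hno
  choose f hf using hno
  -- `f` is injective
  have hinj : Function.Injective f := by
    intro P Q h
    have h1 := hf P
    have h2 := hf Q
    rw [← h] at h2
    exact row_unique (hxy (f P)) h1 h2
  have h5 := Fintype.card_le_of_injective f hinj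
  rw [Fintype.card_option, Fintype.card_fin] at h5
  omega

/-- a matrix with given rows -/
def mk2 (p q r w : F) (h : p * w - q * r = 1) : SL(2, F) := ⟨!![p, q; r, w], by rw [Matrix.det_fin_two_of]; exact h⟩

/-- the point matrices -/
noncomputable def YP (P : Option F) : SL(2, F) := match P with
  | none => nn E E' 1
  | some r => E r

theorem YP_row (P : Option F) : (YP P).1 0 0 = (row P).1 ∧ (YP P).1 0 1 = (row P).2 := by
  cases P with
  | none =>
    have h : (nn E E' (1 : F)).1 = !![0, 1; -1⁻¹, 0] := coe_nn one_ne_zero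
    constructor
    · show (nn E E' (1 : F)).1 0 0 = 0
      rw [h]; rfl
    · show (nn E E' (1 : F)).1 0 1 = 1
      rw [h]; rfl
  | some r => exact ⟨rfl, rfl⟩

/-- same first row -/
theorem same_row1 {Y Z : SL(2, F)} (h1 : Y.1 0 0 = Z.1 0 0) (h2 : Y.1 0 1 = Z.1 0 1) : ∃ c, Y = E' c * Z := by
  have hY := Y.2
  have hZ := Z.2
  rw [Matrix.det_fin_two] at hY hZ
  refine ⟨Y.1 1 0 * Z.1 1 1 - Y.1 1 1 * Z.1 1 0, ?_⟩
  apply Subtype.ext
  rw [Matrix.SpecialLinearGroup.coe_mul, coe_E']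
  ext i j
  fin_cases i <;> fin_cases j
  · simp [Matrix.mul_apply, Fin.sum_univ_two, h1]
  · simp [Matrix.mul_apply, Fin.sum_univ_two, h2]
  · simp [Matrix.mul_apply, Fin.sum_univ_two]
    rw [h1, h2] at hY
    linear_combination Z.1 1 0 * hY - Y.1 1 0 * hZ
  · simp [Matrix.mul_apply, Fin.sum_univ_two]
    rw [h1, h2] at hY
    linear_combination Z.1 1 1 * hY - Y.1 1 1 * hZ

/-- proportional second row -/
theorem same_row2 {Y Z : SL(2, F)} {μ : F} (hμ : μ ≠ 0) (h1 : Y.1 1 0 = μ * Z.1 1 0) (h2 : Y.1 1 1 = μ * Z.1 1 1) :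
    ∃ c, Y = hh E E' μ⁻¹ * (E c * Z) := by
  have hY := Y.2
  have hZ := Z.2
  rw [Matrix.det_fin_two] at hY hZ
  refine ⟨μ * (Y.1 0 1 * Z.1 0 0 - Y.1 0 0 * Z.1 0 1), ?_⟩
  apply Subtype.ext
  rw [Matrix.SpecialLinearGroup.coe_mul, Matrix.SpecialLinearGroup.coe_mul, coe_E, coe_hh (inv_ne_zero hμ)]
  rw [h1, h2] at hY
  ext i j
  fin_cases i <;> fin_cases j
  · simp [Matrix.mul_apply, Fin.sum_univ_two, Matrix.vecMul, dotProduct]
    field_simp
    linear_combination Z.1 0 0 * hY - Y.1 0 0 * μ * hZ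
  · simp [Matrix.mul_apply, Fin.sum_univ_two, Matrix.vecMul, dotProduct]
    field_simp
    linear_combination Z.1 0 1 * hY - Y.1 0 1 * μ * hZ
  · simp [Matrix.mul_apply, Fin.sum_univ_two, Matrix.vecMul, dotProduct, h1]
  · simp [Matrix.mul_apply, Fin.sum_univ_two, Matrix.vecMul, dotProduct, h2]


theorem no_bad [Fintype F] (h2 : (2 : F) = 0) (h3 : ∀ x : F, x ≠ 0 → x ^ 3 = 1) (hcard : Fintype.card F = 4)
    (s1 : ∑ r : F, r = 0) (s2 : ∑ r : F, r ^ 2 = 0) (s3 : ∑ r : F, r ^ 3 = 1)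
    {g y v0 u0 : GLI F} {a e A B : F} (hy : y ∈ chevG2.group F) (hv0 : v0 ∈ VV chevG2 F 0) (hu0 : u0 ∈ UU chevG2 F 0)
    (hA : A ≠ 0) (hB : B ≠ 0) (hB1 : B ≠ 1)
    (hst : y * g * y⁻¹ = v0 * (xg chevG2 F 4 a * tor A B * xg chevG2 F 7 e) * u0)
    (hbad : ∀ y ∈ chevG2.group F, ∀ v ∈ VV chevG2 F 1, ∀ u ∈ UU chevG2 F 1, ∀ A B c d : F, A ≠ 0 → B ≠ 0 →
      y * g * y⁻¹ = v * (xg chevG2 F 5 c * tor A B * xg chevG2 F 6 d) * u → A * B + (A + c * A * B * d) = 0) : False := by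
  classical
  have s0 : (Fintype.card F : F) = 0 := by
    rw [hcard]
    have : ((4 : ℕ) : F) = 2 * 2 := by norm_num
    rw [this, h2, mul_zero]
  obtain ⟨φ, f1, f2⟩ := exists_φ (F := F) GG a0.2
  have e7 : chevG2.simple (a0 : Fin chevG2.rank) = 7 := by decide
  have e4 : chevG2.neg (chevG2.simple (a0 : Fin chevG2.rank)) = 4 := by decide
  have f1' : ∀ t, φ (E t) = xg chevG2 F 7 t := f1
  have f2' : ∀ t, φ (E' t) = xg chevG2 F 4 t := by intro t; rw [f2, e4]
  have fn : φ (nn E E' 1) = ng chevG2 F 7 1 := by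
    have e4' : chevG2.neg 7 = 4 := by decide
    unfold SL2Pres.nn ng
    rw [e4']
    simp only [map_mul, f1', f2']
  have fh : ∀ s, φ (hh E E' s) = ha s := fun s => hg_eq a0 f1 f2 s
  have hval : rval (tor A B) (simpF GG a0) = A := va_tor hA hB
  -- the form
  have step1 : ∀ Y : SL(2, F), Y.1 1 1 * (Y.1 0 0 + Y.1 0 1 * a) - Y.1 1 0 * Y.1 0 0 * e - Y.1 1 0 * Y.1 0 1 * (A⁻¹ + a * e) ≠ 0 →
      ∀ c' d', CV (φ Y * v0 * (φ Y)⁻¹) c' → CU (φ Y * u0 * (φ Y)⁻¹) d' → B + 1 + B * (c' * d') = 0 := by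
    intro Y hs c' d' hc hd
    have hs' : (Y * (E' a * E (rval (tor A B) (simpF GG a0) * e)) *
        dl (rval (tor A B) (simpF GG a0)) (rval_ne_zero GG (tor_mem hA hB) _) Y⁻¹).1 0 0 ≠ 0 := by
      rw [Z00, hval]; exact hs
    have h4 := move_core GG (i := a0) f1 f2 (tor_mem hA hB) a e Y _ rfl hs'
    set s := (Y * (E' a * E (rval (tor A B) (simpF GG a0) * e)) *
        dl (rval (tor A B) (simpF GG a0)) (rval_ne_zero GG (tor_mem hA hB) _) Y⁻¹).1 0 0 with hsdef
    have h5 : hg chevG2 F (chevG2.simple (a0 : Fin chevG2.rank)) s * tor A B = tor (A * s ^ 2) B := by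
      have e1 : A * s ^ 2 ≠ 0 := by positivity
      show ha s * tor A B = _
      refine ext_v (mul_mem (ha_mem hs') (tor_mem hA hB)) (tor_mem e1 hB) ?_ ?_
      · rw [va_tor e1 hB, va_mul (ha_mem hs') (tor_mem hA hB), va_ha hs', va_tor hA hB, mul_comm]; norm_cast
      · rw [vb_tor e1 hB, vb_mul (ha_mem hs') (tor_mem hA hB), vb_ha hs', vb_tor hA hB, zpow_neg]
        have : s ^ (3 : ℤ) = s ^ 3 := by norm_cast
        rw [this, h3 s hs', inv_one, one_mul]
    rw [h5, e4] at h4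
    have h4' : φ Y * (xg chevG2 F 4 a * tor A B * xg chevG2 F 7 e) * (φ Y)⁻¹ = xg chevG2 F 4 _ * tor (A * s ^ 2) B * xg chevG2 F 7 _ := h4
    obtain ⟨a', ha'⟩ : ∃ a', a' = (Y * (E' a * E (rval (tor A B) (simpF GG a0) * e)) *
        dl (rval (tor A B) (simpF GG a0)) (rval_ne_zero GG (tor_mem hA hB) _) Y⁻¹).1 1 0 / s := ⟨_, rfl⟩
    obtain ⟨d0, hd0⟩ : ∃ d0, d0 = (rval (tor A B) (simpF GG a0))⁻¹ * ((Y * (E' a * E (rval (tor A B) (simpF GG a0) * e)) *
        dl (rval (tor A B) (simpF GG a0)) (rval_ne_zero GG (tor_mem hA hB) _) Y⁻¹).1 0 1 / s) := ⟨_, rfl⟩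
    rw [← ha', ← hd0] at h4'
    have hc2 : CV (φ Y * v0 * (φ Y)⁻¹ * xg chevG2 F 4 a') (c' + 0) := hc.mul (CV_x (by norm_num) a')
    have hd2 : CU (xg chevG2 F 7 d0 * (φ Y * u0 * (φ Y)⁻¹)) (0 + d') := (CU_x7 d0).mul hd
    rw [add_zero] at hc2
    rw [zero_add] at hd2
    have n1 : A * s ^ 2 ≠ 0 := by positivity
    have h6 := hbad (φ Y * y) (mul_mem (φ_mem GG a0.2 f1 f2 Y) hy) _ hc2 _ hd2 (A * s ^ 2) B c' d' n1 hB (by
      have : φ Y * y * g * (φ Y * y)⁻¹ = φ Y * (y * g * y⁻¹) * (φ Y)⁻¹ := by group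
      rw [this, hst]
      have : φ Y * (v0 * (xg chevG2 F 4 a * tor A B * xg chevG2 F 7 e) * u0) * (φ Y)⁻¹ =
        (φ Y * v0 * (φ Y)⁻¹) * (φ Y * (xg chevG2 F 4 a * tor A B * xg chevG2 F 7 e) * (φ Y)⁻¹) * (φ Y * u0 * (φ Y)⁻¹) := by group
      rw [this, h4']
      group)
    have h7 : (A * s ^ 2) * (B + 1 + B * (c' * d')) = 0 := by linear_combination h6
    exact (mul_eq_zero.mp h7).resolve_left n1
  -- the values on the points
  obtain ⟨c, c0, r1, r2, r3⟩ := relation h2 s1 s2 s3 s0 hv0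
  let cP : Option F → F := fun P => match P with
    | none => c0
    | some r => c r
  have hcP : ∀ P, CV (φ (YP P) * v0 * (φ (YP P))⁻¹) (cP P) := by
    intro P
    cases P with
    | none =>
      show CV (φ (nn E E' 1) * v0 * (φ (nn E E' 1))⁻¹) c0
      rw [fn]; exact r2
    | some r =>
      show CV (φ (E r) * v0 * (φ (E r))⁻¹) (c r)
      rw [f1']; exact r1 r
  have hcY : ∀ (P : Option F) (Y : SL(2, F)), Y.1 0 0 = (row P).1 → Y.1 0 1 = (row P).2 → CV (φ Y * v0 * (φ Y)⁻¹) (cP P) := by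
    intro P Y h5 h6
    obtain ⟨k, hk⟩ := same_row1 (h5.trans (YP_row P).1.symm) (h6.trans (YP_row P).2.symm)
    rw [hk, map_mul, f2']
    have h7 := ((CV_x (F := F) (s := 4) (by norm_num) k).mul (hcP P)).mul (CV_x (F := F) (s := 4) (by norm_num) (-k))
    rw [zero_add, add_zero, xg_neg GG] at h7
    have h8 : xg chevG2 F 4 k * φ (YP P) * v0 * (xg chevG2 F 4 k * φ (YP P))⁻¹ =
        xg chevG2 F 4 k * (φ (YP P) * v0 * (φ (YP P))⁻¹) * (xg chevG2 F 4 k)⁻¹ := by group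
    rw [h8]; exact h7
  have hdY : ∀ (Y Z : SL(2, F)) (μ : F), μ ≠ 0 → Y.1 1 0 = μ * Z.1 1 0 → Y.1 1 1 = μ * Z.1 1 1 → ∀ d,
      CU (φ Z * u0 * (φ Z)⁻¹) d → CU (φ Y * u0 * (φ Y)⁻¹) d := by
    intro Y Z μ hμ h5 h6 d hd
    obtain ⟨k, hk⟩ := same_row2 hμ h5 h6
    have hμ' : μ⁻¹ ≠ 0 := inv_ne_zero hμ
    have h7 := ((CU_x7 k).mul hd).mul (CU_x7 (-k))
    rw [zero_add, add_zero, xg_neg GG] at h7
    unfold CU at h7 ⊢
    have h8 := (Subgroup.mem_normalizer_iff.mp (H_norm_UU GG (i := 1) (ha_mem hμ')) _).mp h7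
    have h9 := conj_x GG (ha_mem hμ') (simpF GG b0) d
    rw [show rval (ha μ⁻¹) (simpF GG b0) = (μ⁻¹) ^ (-3 : ℤ) from vb_ha hμ', zpow_neg] at h9
    have h10 : (μ⁻¹) ^ (3 : ℤ) = 1 := by
      have : (μ⁻¹) ^ (3 : ℤ) = (μ⁻¹) ^ 3 := by norm_cast
      rw [this, h3 _ hμ']
    rw [h10, inv_one, one_mul] at h9
    have h9' : ha μ⁻¹ * xg chevG2 F 6 d * (ha μ⁻¹)⁻¹ = xg chevG2 F 6 d := h9
    have h11 : (xg chevG2 F 6 d)⁻¹ * (φ Y * u0 * (φ Y)⁻¹) =
        ha μ⁻¹ * ((xg chevG2 F 6 d)⁻¹ * (xg chevG2 F 7 k * (φ Z * u0 * (φ Z)⁻¹) * (xg chevG2 F 7 k)⁻¹)) * (ha μ⁻¹)⁻¹ := by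
      conv_lhs => rw [← h9', hk, map_mul, map_mul, fh, f1']
      group
    rw [h11]; exact h8
  -- all values are equal
  have key : ∀ P P' : Option F, cP P = cP P' ∧ cP P ≠ 0 := by
    intro P P'
    -- the linear forms
    let X1 : Option F → F := fun P => (row P).1 + (row P).2 * a
    let X2 : Option F → F := fun P => (row P).1 * e + (row P).2 * (A⁻¹ + a * e)
    have hX : ∀ P, -X2 P ≠ 0 ∨ X1 P ≠ 0 := by
      intro P
      by_contra hno
      push Not at hno
      obtain ⟨h5, h6⟩ := hno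
      have h7 : (row P).1 = -(row P).2 * a := by
        have : (row P).1 + (row P).2 * a = 0 := h6
        linear_combination this
      have h8 : (row P).1 * e + (row P).2 * (A⁻¹ + a * e) = 0 := neg_eq_zero.mp h5
      have h9 : (row P).2 * A⁻¹ = 0 := by rw [h7] at h8; linear_combination h8
      have h10 : (row P).2 = 0 := (mul_eq_zero.mp h9).resolve_right (inv_ne_zero hA)
      rw [h10] at h7
      rcases row_ne P with h | h
      · exact h (by rw [h7]; ring)
      · exact h h10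
    have hD : ∀ P : Option F, -(row P).2 ≠ 0 ∨ (row P).1 ≠ 0 := fun P => by
      rcases row_ne P with h | h
      · exact Or.inr h
      · exact Or.inl (neg_ne_zero.mpr h)
    obtain ⟨Q, hQ⟩ := exists_pt (by omega : 4 ≤ Fintype.card F) ![-(row P).2, -(row P').2, -X2 P, -X2 P'] ![(row P).1, (row P').1, X1 P, X1 P'] (by
      intro i
      fin_cases i
      · exact hD P
      · exact hD P'
      · exact hX P
      · exact hX P')
    have q0 : -(row P).2 * (row Q).1 + (row P).1 * (row Q).2 ≠ 0 := hQ 0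
    have q1 : -(row P').2 * (row Q).1 + (row P').1 * (row Q).2 ≠ 0 := hQ 1
    have q2 : -X2 P * (row Q).1 + X1 P * (row Q).2 ≠ 0 := hQ 2
    have q3 : -X2 P' * (row Q).1 + X1 P' * (row Q).2 ≠ 0 := hQ 3
    obtain ⟨l, hl⟩ : ∃ l, l = (-(row P).2 * (row Q).1 + (row P).1 * (row Q).2)⁻¹ := ⟨_, rfl⟩
    obtain ⟨l', hl'⟩ : ∃ l', l' = (-(row P').2 * (row Q).1 + (row P').1 * (row Q).2)⁻¹ := ⟨_, rfl⟩
    have hl0 : l ≠ 0 := by rw [hl]; exact inv_ne_zero q0
    have hl0' : l' ≠ 0 := by rw [hl']; exact inv_ne_zero q1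
    have hl1 : l * (-(row P).2 * (row Q).1 + (row P).1 * (row Q).2) = 1 := by rw [hl]; exact inv_mul_cancel₀ q0
    have hl1' : l' * (-(row P').2 * (row Q).1 + (row P').1 * (row Q).2) = 1 := by rw [hl']; exact inv_mul_cancel₀ q1
    let Y : SL(2, F) := mk2 (row P).1 (row P).2 (l * (row Q).1) (l * (row Q).2) (by linear_combination hl1)
    let Y' : SL(2, F) := mk2 (row P').1 (row P').2 (l' * (row Q).1) (l' * (row Q).2) (by linear_combination hl1')
    obtain ⟨d, hd⟩ := exists_CU (v := φ Y * u0 * (φ Y)⁻¹) (UU_le GG (i := 0)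
      ((Subgroup.mem_normalizer_iff.mp (φ_norm_UU GG a0.2 f1 f2 Y) u0).mp hu0))
    have hd' := hdY Y' Y (l' / l) (div_ne_zero hl0' hl0) (by
      show l' * (row Q).1 = l' / l * (l * (row Q).1)
      field_simp) (by
      show l' * (row Q).2 = l' / l * (l * (row Q).2)
      field_simp) d hd
    have g1 := step1 Y (by
      show l * (row Q).2 * ((row P).1 + (row P).2 * a) - l * (row Q).1 * (row P).1 * e - l * (row Q).1 * (row P).2 * (A⁻¹ + a * e) ≠ 0
      have : l * (row Q).2 * ((row P).1 + (row P).2 * a) - l * (row Q).1 * (row P).1 * e - l * (row Q).1 * (row P).2 * (A⁻¹ + a * e) =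
        l * (-X2 P * (row Q).1 + X1 P * (row Q).2) := by
        show _ = l * (-((row P).1 * e + (row P).2 * (A⁻¹ + a * e)) * (row Q).1 + ((row P).1 + (row P).2 * a) * (row Q).2)
        ring
      rw [this]; exact mul_ne_zero hl0 q2) _ _ (hcY P Y rfl rfl) hd
    have g2 := step1 Y' (by
      show l' * (row Q).2 * ((row P').1 + (row P').2 * a) - l' * (row Q).1 * (row P').1 * e - l' * (row Q).1 * (row P').2 * (A⁻¹ + a * e) ≠ 0
      have : l' * (row Q).2 * ((row P').1 + (row P').2 * a) - l' * (row Q).1 * (row P').1 * e - l' * (row Q).1 * (row P').2 * (A⁻¹ + a * e) =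
        l' * (-X2 P' * (row Q).1 + X1 P' * (row Q).2) := by
        show _ = l' * (-((row P').1 * e + (row P').2 * (A⁻¹ + a * e)) * (row Q).1 + ((row P').1 + (row P').2 * a) * (row Q).2)
        ring
      rw [this]; exact mul_ne_zero hl0' q3) _ _ (hcY P' Y' rfl rfl) hd'
    have hB2 : B + 1 ≠ 0 := fun h => hB1 (by linear_combination h - h2)
    have hd0 : d ≠ 0 := by
      rintro rfl
      exact hB2 (by linear_combination g1)
    constructor
    · have h5 : (B * d) * (cP P - cP P') = 0 := by linear_combination g1 - g2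
      exact sub_eq_zero.mp ((mul_eq_zero.mp h5).resolve_left (mul_ne_zero hB hd0))
    · intro h5
      rw [h5] at g1
      exact hB2 (by linear_combination g1)
  have h5 : ∀ r, c r = c0 := fun r => (key (some r) none).1
  have h6 : c0 ≠ 0 := (key none none).2
  apply h6
  rw [Finset.sum_congr rfl (fun r _ => h5 r), Finset.sum_const, Finset.card_univ, nsmul_eq_mul, s0] at r3
  linear_combination r3

end Cfsg.Agent.Lib.GauCell
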