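import Cfsg.Agent.Lib.GauF4b

set_option autoImplicit false

/-!
# Products of two conjugates in G2 over small fields (helper40)
-/

namespace Cfsg.Agent.Lib.GauCell
open Cfsg.Lie Cfsg.Agent.Lib.ChevX Cfsg.Agent.Lib.ChevGood Cfsg.Agent.Lib.ChevRel Cfsg.Agent.Lib.ChevNPerm
  Cfsg.Agent.Lib.ChevTorus Cfsg.Agent.Lib.ChevBN Cfsg.Agent.Lib.SL2Pres Cfsg.Agent.Lib.ChevSL2 Cfsg.Agent.Lib.ChevClosed
open scoped MatrixGroups Matrix

variable {F : Type*} [Field F]

/-- every nontrivial element is a product of two conjugates of `x` -/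
def Cov (x : GLI F) : Prop := ∀ g ∈ chevG2.group F, g ≠ 1 → ∃ a ∈ chevG2.group F, ∃ b ∈ chevG2.group F, g = (a * x * a⁻¹) * (b * x * b⁻¹)

theorem cov4 [Fintype F] (hcard : Fintype.card F = 4) (h2 : (2 : F) = 0) {ω : F} (hω : ω ^ 2 + ω + 1 = 0)
    (hF : ∀ t : F, t = 0 ∨ t = 1 ∨ t = ω ∨ t = ω + 1) {x : GLI F} (hb : Base x ω) : Cov x := by
  classical
  intro g hg hg1
  have h0 := hb.h0
  have h11 : (1 : F) ≠ 0 := one_ne_zero
  have h3 : ∀ x : F, x ≠ 0 → x ^ 3 = 1 := by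
    intro x hx
    have := FiniteField.pow_card_sub_one_eq_one x hx
    rwa [hcard] at this
  have s1 : ∑ r : F, r = 0 := by
    have := FiniteField.sum_pow_lt_card_sub_one F 1 (by rw [hcard]; norm_num)
    simpa using this
  have s2 : ∑ r : F, r ^ 2 = 0 := FiniteField.sum_pow_lt_card_sub_one F 2 (by rw [hcard]; norm_num)
  have s3 : ∑ r : F, r ^ 3 = 1 := by
    have e1 : ∀ r : F, r ^ 3 = 1 - (if r = 0 then 1 else 0) := by
      intro r
      by_cases h : r = 0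
      · rw [if_pos h, h]; ring
      · rw [if_neg h, h3 r h]; ring
    rw [Finset.sum_congr rfl (fun r _ => e1 r), Finset.sum_sub_distrib, Finset.sum_const, Finset.card_univ, hcard,
      Finset.sum_ite_eq' Finset.univ (0 : F) (fun _ => (1 : F)), if_pos (Finset.mem_univ _)]
    have : (4 : ℕ) • (1 : F) = 4 := by norm_num
    rw [this]
    linear_combination h2
  by_contra hno
  -- all states are bad
  have hbad : ∀ y ∈ chevG2.group F, ∀ v ∈ VV chevG2 F 1, ∀ u ∈ UU chevG2 F 1, ∀ A B c d : F, A ≠ 0 → B ≠ 0 →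
      y * g * y⁻¹ = v * (xg chevG2 F 5 c * tor A B * xg chevG2 F 6 d) * u →
      A * B + (A + c * A * B * d) = 0 ∧ (c ≠ 0 ∨ d ≠ 0 ∨ B ≠ 1) := by
    intro y hy v hv u hu A B c d hA hB e
    have n1 : A * B * (A + c * A * B * d) - A * B * d * (c * A * B) ≠ 0 := by
      have : A * B * (A + c * A * B * d) - A * B * d * (c * A * B) = A ^ 2 * B := by ring
      rw [this]; positivity
    rw [← Phi_gm hA hB c d n1] at e
    by_contra hcon
    apply hno
    refine (pd4 (x := x) (N := gm (A * B) (A * B * d) (c * A * B) (A + c * A * B * d) n1) h2 hω hF hb ?_).cover hy hv hu e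
    by_cases h4 : A * B + (A + c * A * B * d) = 0
    · right
      have h5 : ¬ (c ≠ 0 ∨ d ≠ 0 ∨ B ≠ 1) := fun h => hcon ⟨h4, h⟩
      push Not at h5
      obtain ⟨rfl, rfl, rfl⟩ := h5
      simp [coe_gm]
    · left
      exact h4
  -- a state with `B ≠ 1`
  obtain ⟨A, B, hA, hB, hB1, y, hy, v, hv, u, hu, e⟩ : ∃ A B : F, A ≠ 0 ∧ B ≠ 0 ∧ B ≠ 1 ∧ St chevG2 F g (tor A B) := by
    obtain ⟨A, B, hA, hB, -, hst⟩ := exists_det (by omega) hg hg1 h11
    by_cases hB1 : B = 1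
    · subst hB1
      obtain ⟨y, hy, v, hv', u, hu, e⟩ := hst
      obtain ⟨v, hv2, c, rfl⟩ := exists_V_dec GG (i := b0) (by decide) hv'
      obtain ⟨d, u, hu2, rfl⟩ := exists_U_dec GG (i := b0) (by decide) hu
      have e1 : chevG2.neg (chevG2.simple (b0 : Fin chevG2.rank)) = 5 := by decide
      have e2 : chevG2.simple (b0 : Fin chevG2.rank) = 6 := by decide
      have h4 := hbad y hy v hv2 u hu2 A 1 c d hA one_ne_zero (by rw [e, e1, e2]; group)
      have h5 : NC GG b0 g (tor A 1) := ⟨y, hy, v, hv2, u, hu2, c, d, by rw [e]; group, by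
        rcases h4.2 with h | h | h
        · exact Or.inl h
        · exact Or.inr (Or.inl h)
        · exact absurd rfl h⟩
      have h6 := mv_b hA hB h5 h0
      refine ⟨_, _, ?_, ?_, ?_, h6⟩
      · exact mul_ne_zero hA (inv_ne_zero h0)
      · rw [one_mul]; exact pow_ne_zero 2 h0
      · rw [one_mul]
        intro h7
        exact h0 (by linear_combination hω - h7 - h2)
    · exact ⟨A, B, hA, hB, hB1, hst⟩
  obtain ⟨v0, hv0, a, rfl⟩ := exists_V_dec GG (i := 0) (by decide) hv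
  obtain ⟨b, u0, hu0, rfl⟩ := exists_U_dec GG (i := 0) (by decide) hu
  have e1 : chevG2.neg (chevG2.simple 0) = 4 := by decide
  have e2 : chevG2.simple 0 = 7 := by decide
  rw [e1, e2] at e
  refine no_bad h2 h3 hcard s1 s2 s3 hy hv0 hu0 hA hB hB1 (a := a) (e := b) (by rw [e]; group) ?_
  intro y hy v hv u hu A B c d hA hB e
  exact (hbad y hy v hv u hu A B c d hA hB e).1

theorem tor_pow {A B : F} (hA : A ≠ 0) (hB : B ≠ 0) (n : ℕ) : (tor A B) ^ n = tor (A ^ n) (B ^ n) := by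
  induction n with
  | zero => rw [pow_zero, pow_zero, pow_zero, tor_one]
  | succ n ih => rw [pow_succ, ih, tor_mul (pow_ne_zero n hA) (pow_ne_zero n hB) hA hB, ← pow_succ, ← pow_succ]

theorem wrap {p : ℕ} {ν : F} (h0 : ν ≠ 0) (hc : Cov (Phi (XX ν h0))) {k n : ℕ} {s : F} (hs0 : s ≠ 0)
    (e1 : ((XX ν h0) ^ k).1 0 0 = s) (e2 : ((XX ν h0) ^ k).1 0 1 = 0) (e3 : ((XX ν h0) ^ k).1 1 0 = 0) (e4 : ((XX ν h0) ^ k).1 1 1 = s)
    (hs : s ^ n = 1) (hp : ¬ p ∣ k * n) : ∃ x : chevG2.group F, ¬ p ∣ orderOf x ∧ ∀ g : chevG2.group F, g ≠ 1 →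
      ∃ u v : chevG2.group F, g = (u * x * u⁻¹) * (v * x * v⁻¹) := by
  refine ⟨⟨Phi (XX ν h0), Phi_group _⟩, fun h => hp (h.trans ?_), fun g hg1 => ?_⟩
  · apply orderOf_dvd_of_pow_eq_one
    apply Subtype.ext
    show (Phi (XX ν h0)) ^ (k * n) = 1
    rw [pow_mul, ← map_pow, Phi_scal hs0 e1 e2 e3 e4, tor_pow hs0 one_ne_zero, hs, one_pow, tor_one]
  · obtain ⟨a, ha, b, hb, e⟩ := hc g g.2 (fun h => hg1 (Subtype.ext h))
    exact ⟨⟨a, ha⟩, ⟨b, hb⟩, Subtype.ext e⟩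

end Cfsg.Agent.Lib.GauCell
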