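import Cfsg.Agent.Lib.GauCell2
import Cfsg.Agent.Lib.ChevOkG2
import Cfsg.Agent.S1059
import Cfsg.Agent.S1027
import Cfsg.Agent.Lib.ChevHOrder

set_option autoImplicit false

/-!
# The big cell of G2 (helper40)
-/

namespace Cfsg.Agent.Lib.GauCell
open Cfsg.Lie Cfsg.Agent.Lib.ChevX Cfsg.Agent.Lib.ChevGood Cfsg.Agent.Lib.ChevRel Cfsg.Agent.Lib.ChevNPerm
  Cfsg.Agent.Lib.ChevTorus Cfsg.Agent.Lib.ChevBN Cfsg.Agent.Lib.SL2Pres Cfsg.Agent.Lib.ChevSL2 Cfsg.Agent.Lib.ChevClosed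
open scoped MatrixGroups Matrix
open Cfsg.Agent.Lib.ChevN (Valid wr nwd nwd_cons)

section
variable {D : ChevalleyDatum} {F : Type*} [Field F] (G : Good D)
include G

/-- fixed points of a torus element on a closed set of positive roots -/
theorem fix_XS (hD : D ∈ [chevG2, chevB2, chevD4, chevF4, chevE6, chevE7, chevE8]) {A : Set (Fin D.nroots)} (hA : Closed F A)
    {z : GL D.Idx F} (hz : z ∈ D.diagonalSubgroup F) {u : GL D.Idx F} (hu : u ∈ ChevClosed.XS D F A) (h : z * u * z⁻¹ = u) :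
    u ∈ ChevClosed.XS D F {r | r ∈ A ∧ rval z r = 1} := by
  obtain ⟨c, hc, rfl⟩ := exists_pr' G hA hu
  have hsupp := supp_pos G hA.pos hc
  rw [conj_pr G hz c _ _ rfl] at h
  have h1 := pr_inj G hD (t := fun r => rvn z r * c r) (t' := c) (fun r hr => by rw [hsupp r hr, mul_zero]) hsupp h
  apply pr_mem' G
  intro r hr
  by_cases h2 : ∃ h : r < D.nroots, (⟨r, h⟩ : Fin D.nroots) ∈ A
  · obtain ⟨h3, h4⟩ := h2
    have h5 : rval z ⟨r, h3⟩ ≠ 1 := fun h => hr h3 ⟨h4, h⟩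
    have h6 := congrFun h1 r
    change rvn z r * c r = c r at h6
    have h7 : rvn z r = rval z ⟨r, h3⟩ := dif_pos h3
    rw [h7] at h6
    have h8 : (rval z ⟨r, h3⟩ - 1) * c r = 0 := by rw [sub_mul, h6]; ring
    exact (mul_eq_zero.mp h8).resolve_left (sub_ne_zero.mpr h5)
  · push Not at h2
    exact hc r h2

theorem rval_hg {i : Fin D.rank} {c : F} (hc : c ≠ 0) (s : Fin D.nroots) :
    rval (hg D F (D.simple i) c) s = c ^ D.cartan i s := by
  have h1 := conj_x G (hg_mem G (G.simple_lt i i.2) hc) s 1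
  rw [hg_conj G (G.simple_lt i i.2) s.2 c hc, mul_one, mul_one] at h1
  have h2 := ChevRel.xg_inj G s.2 h1
  rw [← h2]
  congr 1
  rw [Finset.sum_eq_single (i : ℕ)]
  · rw [G.co_simple i i.2, if_pos rfl, one_mul]
  · intro j _ hj; rw [G.co_simple i i.2, if_neg hj, zero_mul]
  · intro h; exact absurd (Finset.mem_range.mpr i.2) h

end

/-! ### G2 -/

noncomputable abbrev GG : Good chevG2 := ChevOkG2.good

/-- the short fundamental root -/
abbrev a0 : Fin chevG2.rank := ⟨0, by decide⟩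
/-- the long fundamental root -/
abbrev b0 : Fin chevG2.rank := ⟨1, by decide⟩

variable {F : Type*} [Field F]

abbrev GLI (F : Type*) [Field F] := GL chevG2.Idx F

/-- the pair of values of a torus element -/
noncomputable def va (h : GLI F) : F := rval h (simpF GG a0)
noncomputable def vb (h : GLI F) : F := rval h (simpF GG b0)

theorem va_mul {h k : GLI F} (hh : h ∈ chevG2.diagonalSubgroup F) (hk : k ∈ chevG2.diagonalSubgroup F) : va (h * k) = va h * va k :=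
  rval_mul GG hh hk _
theorem vb_mul {h k : GLI F} (hh : h ∈ chevG2.diagonalSubgroup F) (hk : k ∈ chevG2.diagonalSubgroup F) : vb (h * k) = vb h * vb k :=
  rval_mul GG hh hk _
theorem va_ne {h : GLI F} (hh : h ∈ chevG2.diagonalSubgroup F) : va h ≠ 0 := rval_ne_zero GG hh _
theorem vb_ne {h : GLI F} (hh : h ∈ chevG2.diagonalSubgroup F) : vb h ≠ 0 := rval_ne_zero GG hh _

/-- the coroot elements -/
noncomputable def ha (s : F) : GLI F := hg chevG2 F (chevG2.simple a0) s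
noncomputable def hb (s : F) : GLI F := hg chevG2 F (chevG2.simple b0) s

theorem ha_mem {s : F} (hs : s ≠ 0) : ha s ∈ chevG2.diagonalSubgroup F := hg_mem GG (GG.simple_lt a0 a0.2) hs
theorem hb_mem {s : F} (hs : s ≠ 0) : hb s ∈ chevG2.diagonalSubgroup F := hg_mem GG (GG.simple_lt b0 b0.2) hs

theorem va_ha {s : F} (hs : s ≠ 0) : va (ha s) = s ^ (2 : ℤ) := rval_hg GG (i := a0) hs _
theorem vb_ha {s : F} (hs : s ≠ 0) : vb (ha s) = s ^ (-3 : ℤ) := rval_hg GG (i := a0) hs _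
theorem va_hb {s : F} (hs : s ≠ 0) : va (hb s) = s ^ (-1 : ℤ) := rval_hg GG (i := b0) hs _
theorem vb_hb {s : F} (hs : s ≠ 0) : vb (hb s) = s ^ (2 : ℤ) := rval_hg GG (i := b0) hs _

theorem ext_v {h k : GLI F} (hh : h ∈ chevG2.diagonalSubgroup F) (hk : k ∈ chevG2.diagonalSubgroup F) (h1 : va h = va k)
    (h2 : vb h = vb k) : h = k := by
  refine ext_rval GG hh hk fun s => ?_
  rw [rval_prod GG hh, rval_prod GG hk]
  refine Finset.prod_congr rfl fun j _ => ?_
  congr 1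
  obtain ⟨j, hj⟩ := j
  change j < 2 at hj
  interval_cases j
  · exact h1
  · exact h2

/-- the torus element with given values -/
noncomputable def tor (A B : F) : GLI F := ha (A ^ 2 * B) * hb (A ^ 3 * B ^ 2)

theorem tor_mem {A B : F} (hA : A ≠ 0) (hB : B ≠ 0) : tor A B ∈ chevG2.diagonalSubgroup F :=
  mul_mem (ha_mem (by positivity)) (hb_mem (by positivity))

theorem va_tor {A B : F} (hA : A ≠ 0) (hB : B ≠ 0) : va (tor A B) = A := by
  unfold tor
  rw [va_mul (ha_mem (by positivity)) (hb_mem (by positivity)), va_ha (by positivity), va_hb (by positivity), zpow_neg, zpow_one]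
  have : (A ^ 2 * B) ^ (2 : ℤ) = (A ^ 2 * B) ^ 2 := by norm_cast
  rw [this]
  field_simp

theorem vb_tor {A B : F} (hA : A ≠ 0) (hB : B ≠ 0) : vb (tor A B) = B := by
  unfold tor
  rw [vb_mul (ha_mem (by positivity)) (hb_mem (by positivity)), vb_ha (by positivity), vb_hb (by positivity), zpow_neg]
  have : (A ^ 2 * B) ^ (3 : ℤ) = (A ^ 2 * B) ^ 3 := by norm_cast
  rw [this]
  have : (A ^ 3 * B ^ 2) ^ (2 : ℤ) = (A ^ 3 * B ^ 2) ^ 2 := by norm_cast
  rw [this]
  field_simp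

theorem eq_tor {h : GLI F} (hh : h ∈ chevG2.diagonalSubgroup F) : h = tor (va h) (vb h) :=
  ext_v hh (tor_mem (va_ne hh) (vb_ne hh)) (va_tor (va_ne hh) (vb_ne hh)).symm (vb_tor (va_ne hh) (vb_ne hh)).symm

/-- move along the short root -/
theorem move_a {g h : GLI F} (hh : h ∈ chevG2.diagonalSubgroup F) (hs : NC GG a0 g h) {s : F} (hs0 : s ≠ 0) :
    St chevG2 F g (tor (va h * s ^ 2) (vb h * (s ^ 3)⁻¹)) := by
  have h1 := hs.move GG hh hs0
  have hA := va_ne hh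
  have hB := vb_ne hh
  have h2 : tor (va h * s ^ 2) (vb h * (s ^ 3)⁻¹) = ha s * h := by
    have e1 : va h * s ^ 2 ≠ 0 := by positivity
    have e2 : vb h * (s ^ 3)⁻¹ ≠ 0 := by positivity
    refine ext_v (tor_mem e1 e2) (mul_mem (ha_mem hs0) hh) ?_ ?_
    · rw [va_tor e1 e2, va_mul (ha_mem hs0) hh, va_ha hs0, mul_comm]; norm_cast
    · rw [vb_tor e1 e2, vb_mul (ha_mem hs0) hh, vb_ha hs0, mul_comm, zpow_neg]; norm_cast
  rw [h2]
  exact h1

/-- move along the long root -/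
theorem move_b {g h : GLI F} (hh : h ∈ chevG2.diagonalSubgroup F) (hs : NC GG b0 g h) {s : F} (hs0 : s ≠ 0) :
    St chevG2 F g (tor (va h * s⁻¹) (vb h * s ^ 2)) := by
  have h1 := hs.move GG hh hs0
  have hA := va_ne hh
  have hB := vb_ne hh
  have h2 : tor (va h * s⁻¹) (vb h * s ^ 2) = hb s * h := by
    have e1 : va h * s⁻¹ ≠ 0 := by positivity
    have e2 : vb h * s ^ 2 ≠ 0 := by positivity
    refine ext_v (tor_mem e1 e2) (mul_mem (hb_mem hs0) hh) ?_ ?_
    · rw [va_tor e1 e2, va_mul (hb_mem hs0) hh, va_hb hs0, mul_comm, zpow_neg, zpow_one]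
    · rw [vb_tor e1 e2, vb_mul (hb_mem hs0) hh, vb_hb hs0, mul_comm]; norm_cast
  rw [h2]
  exact h1

theorem st_nc_a {g : GLI F} {A B : F} (hA : A ≠ 0) (hB : B ≠ 0) (h : St chevG2 F g (tor A B)) (h1 : A ≠ 1) : NC GG a0 g (tor A B) :=
  h.nc GG (by rw [show rval (tor A B) (simpF GG a0) = A from va_tor hA hB]; exact h1)

theorem st_nc_b {g : GLI F} {A B : F} (hA : A ≠ 0) (hB : B ≠ 0) (h : St chevG2 F g (tor A B)) (h1 : B ≠ 1) : NC GG b0 g (tor A B) :=
  h.nc GG (by rw [show rval (tor A B) (simpF GG b0) = B from vb_tor hA hB]; exact h1)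

theorem mv_a {g : GLI F} {A B : F} (hA : A ≠ 0) (hB : B ≠ 0) (hs : NC GG a0 g (tor A B)) {s : F} (hs0 : s ≠ 0) :
    St chevG2 F g (tor (A * s ^ 2) (B * (s ^ 3)⁻¹)) := by
  have := move_a (tor_mem hA hB) hs hs0
  rwa [va_tor hA hB, vb_tor hA hB] at this

theorem mv_b {g : GLI F} {A B : F} (hA : A ≠ 0) (hB : B ≠ 0) (hs : NC GG b0 g (tor A B)) {s : F} (hs0 : s ≠ 0) :
    St chevG2 F g (tor (A * s⁻¹) (B * s ^ 2)) := by
  have := move_b (tor_mem hA hB) hs hs0
  rwa [va_tor hA hB, vb_tor hA hB] at this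

theorem card_cond [Fintype F] (h3 : 3 ≤ Fintype.card F) : Nat.card (chevG2.group F) <
    2 * (Nat.card (chevG2.posUnipotent F) * Nat.card (chevG2.borelSubgroup F)) := by
  set q := Fintype.card F with hq
  have e1 := Cfsg.Agent.S1059.result (F := F) hq.symm
  have e2 : Nat.card (chevG2.posUnipotent F) = q ^ 6 := Cfsg.Agent.S1027.result (F := F) chevG2 (by simp)
  have e3 : Nat.card (chevG2.diagonalSubgroup F) = (q - 1) ^ 2 := by
    have := ChevHOrder.card_diagonal hq.symm (chevG2, 1) (by simp)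
    rw [one_mul] at this
    exact this
  have hfin : Finite (GL chevG2.Idx F) := by
    have : Finite (Matrix chevG2.Idx chevG2.Idx F) := inferInstanceAs (Finite (chevG2.Idx → chevG2.Idx → F))
    exact Finite.of_injective (fun g : GL chevG2.Idx F => (g : Matrix chevG2.Idx chevG2.Idx F)) Units.val_injective
  have e4 : Nat.card (chevG2.posUnipotent F) * Nat.card (chevG2.diagonalSubgroup F) ≤ Nat.card (chevG2.borelSubgroup F) := by
    rw [← Nat.card_prod]
    refine Nat.card_le_card_of_injective (fun p : chevG2.posUnipotent F × chevG2.diagonalSubgroup F =>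
      (⟨p.1 * p.2, mul_mem (ChevH.U_le_B p.1.2) (ChevH.H_le_B p.2.2)⟩ : chevG2.borelSubgroup F)) ?_
    rintro ⟨u, h⟩ ⟨u', h'⟩ e
    have h1 : (u : GLI F) * h = u' * h' := congrArg Subtype.val e
    have h2 : (u' : GLI F)⁻¹ * u = h' * (h : GLI F)⁻¹ := by
      calc (u' : GLI F)⁻¹ * u = (u' : GLI F)⁻¹ * (u * h) * (h : GLI F)⁻¹ := by group
        _ = h' * (h : GLI F)⁻¹ := by rw [h1]; group
    have h3 : (u' : GLI F)⁻¹ * u ∈ chevG2.posUnipotent F ⊓ chevG2.diagonalSubgroup F :=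
      Subgroup.mem_inf.mpr ⟨mul_mem (inv_mem u'.2) u.2, by rw [h2]; exact mul_mem h'.2 (inv_mem h.2)⟩
    rw [ChevH.U_inf_H GG, Subgroup.mem_bot] at h3
    have h4 : (u' : GLI F) = u := inv_mul_eq_one.mp h3
    have h5 : u = u' := Subtype.ext h4.symm
    subst h5
    exact Prod.ext rfl (Subtype.ext (mul_left_cancel h1))
  rw [e2] at e4 ⊢
  rw [e3] at e4
  rw [e1]
  refine lt_of_lt_of_le ?_ (Nat.mul_le_mul_left 2 (Nat.mul_le_mul_left _ e4))
  obtain ⟨k, hk⟩ : ∃ k, q = k + 3 := ⟨q - 3, by omega⟩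
  have e5 : q - 1 = k + 2 := by omega
  have e6 : q ^ 2 - 1 = (k + 2) * (k + 4) := by
    rw [hk]
    have : (k + 3) ^ 2 = (k + 2) * (k + 4) + 1 := by ring
    omega
  rw [e5, e6, hk]
  have e7 : (k + 3) ^ 6 - 1 < (k + 3) ^ 6 := Nat.sub_lt (by positivity) one_pos
  have e8 : (k + 3) ^ 6 * ((k + 2) * (k + 4)) * ((k + 3) ^ 6 - 1) < (k + 3) ^ 6 * ((k + 2) * (k + 4)) * (k + 3) ^ 6 :=
    Nat.mul_lt_mul_of_pos_left e7 (by positivity)
  refine lt_of_lt_of_le e8 ?_
  have e9 : 2 * ((k + 3) ^ 6 * ((k + 3) ^ 6 * (k + 2) ^ 2)) = (k + 3) ^ 6 * ((k + 2) * (2 * (k + 2))) * (k + 3) ^ 6 := by ring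
  rw [e9]
  exact Nat.mul_le_mul_right _ (Nat.mul_le_mul_left _ (Nat.mul_le_mul_left _ (by omega)))

end Cfsg.Agent.Lib.GauCell
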