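import Cfsg.Agent.Lib.GauG2

set_option autoImplicit false

/-!
# Products of two conjugates of a regular split element in G2 (helper40)
-/

namespace Cfsg.Agent.Lib.GauCell
open Cfsg.Lie Cfsg.Agent.Lib.ChevX Cfsg.Agent.Lib.ChevGood Cfsg.Agent.Lib.ChevRel Cfsg.Agent.Lib.ChevNPerm
  Cfsg.Agent.Lib.ChevTorus Cfsg.Agent.Lib.ChevBN Cfsg.Agent.Lib.SL2Pres Cfsg.Agent.Lib.ChevSL2 Cfsg.Agent.Lib.ChevClosed
open scoped MatrixGroups Matrix
open Cfsg.Agent.Lib.ChevN (Valid wr nwd nwd_cons)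

variable {F : Type*} [Field F]

theorem exists_avoid [Fintype F] (h7 : 7 ≤ Fintype.card F) (c1 c2 c3 c4 : F) (h1 : c2 ≠ 0) (h3 : c4 ≠ 0) :
    ∃ s : F, s ≠ 0 ∧ c1 ≠ c2 * s ^ 3 ∧ c3 ≠ c4 * s ^ 2 := by
  classical
  let P : Polynomial F := Polynomial.X * ((Polynomial.C c2 * Polynomial.X ^ 3 - Polynomial.C c1) *
    (Polynomial.C c4 * Polynomial.X ^ 2 - Polynomial.C c3))
  have d1 : (Polynomial.C c2 * Polynomial.X ^ 3 - Polynomial.C c1 : Polynomial F).natDegree = 3 := by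
    compute_degree!
  have d2 : (Polynomial.C c4 * Polynomial.X ^ 2 - Polynomial.C c3 : Polynomial F).natDegree = 2 := by
    compute_degree!
  have n1 : (Polynomial.C c2 * Polynomial.X ^ 3 - Polynomial.C c1 : Polynomial F) ≠ 0 := fun h => by rw [h] at d1; simp at d1
  have n2 : (Polynomial.C c4 * Polynomial.X ^ 2 - Polynomial.C c3 : Polynomial F) ≠ 0 := fun h => by rw [h] at d2; simp at d2
  have hP : P ≠ 0 := mul_ne_zero Polynomial.X_ne_zero (mul_ne_zero n1 n2)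
  have hd : P.natDegree = 6 := by
    rw [Polynomial.natDegree_mul Polynomial.X_ne_zero (mul_ne_zero n1 n2), Polynomial.natDegree_mul n1 n2, d1, d2, Polynomial.natDegree_X]
  obtain ⟨s, hs⟩ := P.exists_eval_ne_zero_of_natDegree_lt_card hP (by
    rw [hd, Cardinal.mk_fintype]
    exact_mod_cast lt_of_lt_of_le (by norm_num) h7)
  simp only [P, Polynomial.eval_mul, Polynomial.eval_X, Polynomial.eval_sub, Polynomial.eval_pow, Polynomial.eval_C] at hs
  have h4 := left_ne_zero_of_mul hs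
  have h5 := right_ne_zero_of_mul hs
  exact ⟨s, h4, fun h => left_ne_zero_of_mul h5 (by rw [← h]; ring), fun h => right_ne_zero_of_mul h5 (by rw [← h]; ring)⟩

theorem exists_avoid2 [Fintype F] (h7 : 5 ≤ Fintype.card F) (c0 c3 c4 : F) (h3 : c4 ≠ 0) :
    ∃ s : F, s ≠ 0 ∧ s ≠ c0 ∧ c3 ≠ c4 * s ^ 2 := by
  classical
  let P : Polynomial F := Polynomial.X * ((Polynomial.X - Polynomial.C c0) *
    (Polynomial.C c4 * Polynomial.X ^ 2 - Polynomial.C c3))
  have d1 : (Polynomial.X - Polynomial.C c0 : Polynomial F).natDegree = 1 := by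
    compute_degree!
  have d2 : (Polynomial.C c4 * Polynomial.X ^ 2 - Polynomial.C c3 : Polynomial F).natDegree = 2 := by
    compute_degree!
  have n1 : (Polynomial.X - Polynomial.C c0 : Polynomial F) ≠ 0 := fun h => by rw [h] at d1; simp at d1
  have n2 : (Polynomial.C c4 * Polynomial.X ^ 2 - Polynomial.C c3 : Polynomial F) ≠ 0 := fun h => by rw [h] at d2; simp at d2
  have hP : P ≠ 0 := mul_ne_zero Polynomial.X_ne_zero (mul_ne_zero n1 n2)
  have hd : P.natDegree = 4 := by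
    rw [Polynomial.natDegree_mul Polynomial.X_ne_zero (mul_ne_zero n1 n2), Polynomial.natDegree_mul n1 n2, d1, d2, Polynomial.natDegree_X]
  obtain ⟨s, hs⟩ := P.exists_eval_ne_zero_of_natDegree_lt_card hP (by
    rw [hd, Cardinal.mk_fintype]
    exact_mod_cast lt_of_lt_of_le (by norm_num) h7)
  simp only [P, Polynomial.eval_mul, Polynomial.eval_X, Polynomial.eval_sub, Polynomial.eval_pow, Polynomial.eval_C] at hs
  have h4 := left_ne_zero_of_mul hs
  have h5 := right_ne_zero_of_mul hs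
  exact ⟨s, h4, fun h => left_ne_zero_of_mul h5 (by rw [← h]; ring), fun h => right_ne_zero_of_mul h5 (by rw [← h]; ring)⟩

/-- the prescribed Gauss decomposition for large fields -/
theorem gauss_large [Fintype F] (h7 : 7 ≤ Fintype.card F) {g : GLI F} (hg' : g ∈ chevG2.group F) (hg1 : g ≠ 1) {A B : F}
    (hA : A ≠ 0) (hB : B ≠ 0) : St chevG2 F g (tor A B) := by
  obtain ⟨i, h, hh, hnc⟩ := exists_NC GG (card_cond (by omega)) hg' hg1
  rw [eq_tor hh] at hnc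
  set A0 := va h
  set B0 := vb h
  have hA0 : A0 ≠ 0 := va_ne hh
  have hB0 : B0 ≠ 0 := vb_ne hh
  obtain ⟨i, hi⟩ := i
  change i < 2 at hi
  interval_cases i
  · -- short root first
    have hnc : NC GG a0 g (tor A0 B0) := hnc
    obtain ⟨S, hS⟩ : ∃ S, S = A ^ 2 * B / (A0 ^ 2 * B0) := ⟨_, rfl⟩
    obtain ⟨t, ht⟩ : ∃ t, t = A0 * S ^ 2 / A := ⟨_, rfl⟩
    have hS0 : S ≠ 0 := by rw [hS]; positivity
    have ht0 : t ≠ 0 := by rw [ht]; positivity
    obtain ⟨s, hs0, hs1, hs2⟩ := exists_avoid h7 B0 1 t A0 one_ne_zero hA0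
    have n1 : A0 * s ^ 2 ≠ 0 := by positivity
    have n2 : B0 * (s ^ 3)⁻¹ ≠ 0 := by positivity
    have g1 := mv_a hA0 hB0 hnc hs0
    have g2 := mv_b n1 n2 (st_nc_b n1 n2 g1 (fun h => hs1 (by
      rw [one_mul]; rw [mul_inv_eq_one₀ (by positivity)] at h; exact h))) ht0
    have n3 : A0 * s ^ 2 * t⁻¹ ≠ 0 := by positivity
    have n4 : B0 * (s ^ 3)⁻¹ * t ^ 2 ≠ 0 := by positivity
    have g3 := mv_a n3 n4 (st_nc_a n3 n4 g2 (fun h => hs2 (by
      rw [mul_inv_eq_one₀ ht0] at h; exact h.symm))) (s := S / s) (by positivity)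
    have e1 : A0 * s ^ 2 * t⁻¹ * (S / s) ^ 2 = A := by rw [ht]; field_simp
    have e2 : B0 * (s ^ 3)⁻¹ * t ^ 2 * ((S / s) ^ 3)⁻¹ = B := by
      have : B0 * (s ^ 3)⁻¹ * t ^ 2 * ((S / s) ^ 3)⁻¹ = B0 * A0 ^ 2 / A ^ 2 * S := by rw [ht]; field_simp
      rw [this, hS]; field_simp
    rwa [e1, e2] at g3
  · have hnc : NC GG b0 g (tor A0 B0) := hnc
    obtain ⟨t, ht⟩ : ∃ t, t = A ^ 2 * B / (A0 ^ 2 * B0) := ⟨_, rfl⟩
    obtain ⟨S, hS⟩ : ∃ S, S = A0 * t ^ 2 / A := ⟨_, rfl⟩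
    have ht0 : t ≠ 0 := by rw [ht]; positivity
    have hS0 : S ≠ 0 := by rw [hS]; positivity
    obtain ⟨s, hs0, hs1, hs2⟩ := exists_avoid2 (by omega) A0 (t ^ 3) B0 hB0
    have n1 : A0 * s⁻¹ ≠ 0 := by positivity
    have n2 : B0 * s ^ 2 ≠ 0 := by positivity
    have g1 := mv_b hA0 hB0 hnc hs0
    have g2 := mv_a n1 n2 (st_nc_a n1 n2 g1 (fun h => hs1 (by
      rw [mul_inv_eq_one₀ hs0] at h; exact h.symm))) ht0
    have n3 : A0 * s⁻¹ * t ^ 2 ≠ 0 := by positivity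
    have n4 : B0 * s ^ 2 * (t ^ 3)⁻¹ ≠ 0 := by positivity
    have g3 := mv_b n3 n4 (st_nc_b n3 n4 g2 (fun h => hs2 (by
      rw [mul_inv_eq_one₀ (by positivity)] at h; exact h.symm))) (s := S / s) (by positivity)
    have e1 : A0 * s⁻¹ * t ^ 2 * (S / s)⁻¹ = A := by rw [hS]; field_simp
    have e2 : B0 * s ^ 2 * (t ^ 3)⁻¹ * (S / s) ^ 2 = B := by
      have : B0 * s ^ 2 * (t ^ 3)⁻¹ * (S / s) ^ 2 = B0 * A0 ^ 2 / A ^ 2 * t := by rw [hS]; field_simp
      rw [this, ht]; field_simp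
    rwa [e1, e2] at g3

/-! ### regular elements -/

/-- the root values of a torus element -/
theorem rval_tor {A B : F} (hA : A ≠ 0) (hB : B ≠ 0) (s : Fin chevG2.nroots) :
    rval (tor A B) s = A ^ GG.rv s 0 * B ^ GG.rv s 1 := by
  rw [rval_prod GG (tor_mem hA hB) s]
  have h2 : (Finset.univ : Finset (Fin chevG2.rank)) = {a0, b0} := by decide
  rw [h2, Finset.prod_pair (by decide)]
  congr 1
  · rw [show rval (tor A B) (simpF GG a0) = A from va_tor hA hB]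
  · rw [show rval (tor A B) (simpF GG b0) = B from vb_tor hA hB]

theorem rv_table0 : ∀ s < 12, Cfsg.Agent.Lib.ChevTab.rvT ChevDataG2.A s 0 + Cfsg.Agent.Lib.ChevTab.rvT ChevDataG2.A s 1 ≠ 0 ∧
    |Cfsg.Agent.Lib.ChevTab.rvT ChevDataG2.A s 0 + Cfsg.Agent.Lib.ChevTab.rvT ChevDataG2.A s 1| ≤ 5 := by decide +kernel

theorem rv_table (s : Fin chevG2.nroots) : GG.rv s 0 + GG.rv s 1 ≠ 0 ∧ |GG.rv s 0 + GG.rv s 1| ≤ 5 :=
  rv_table0 s s.2

/-! ### the longest element -/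

/-- a longest element -/
noncomputable def n0 (F : Type*) [Field F] : GLI F := nwd chevG2 F [0, 1, 0, 1, 0, 1]

theorem valid0 : Valid chevG2 [0, 1, 0, 1, 0, 1] := by
  intro i hi
  change i < 2
  simp only [List.mem_cons, List.not_mem_nil, or_false] at hi
  omega

theorem wr0 : ∀ s < 12, wr chevG2 [0, 1, 0, 1, 0, 1] s = chevG2.neg s := by decide +kernel

theorem n0_mem : n0 F ∈ chevG2.monomialSubgroup F := ChevN.nwd_mem_N GG valid0

theorem n0_group : n0 F ∈ chevG2.group F := N_le_group GG n0_mem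

theorem hl0 : ∀ s, chevG2.IsPosRoot s → chevG2.IsNegRoot (wr chevG2 [0, 1, 0, 1, 0, 1] s) := by
  intro s hs
  rw [wr0 s hs.1, ChevU.isNeg_neg_iff GG hs.1]
  exact hs

theorem n0_conj {s : ℕ} (hs : s < chevG2.nroots) : ∃ ε : F, (ε = 1 ∨ ε = -1) ∧
    (∀ t : F, n0 F * xg chevG2 F s t * (n0 F)⁻¹ = xg chevG2 F (chevG2.neg s) (ε * t)) ∧
    (∀ t : F, n0 F * xg chevG2 F (chevG2.neg s) t * (n0 F)⁻¹ = xg chevG2 F s (ε * t)) := by
  obtain ⟨ε, hε, h1, h2⟩ := ChevN.nwd_conj GG (F := F) valid0 hs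
  rw [wr0 s hs] at h1 h2
  rw [ChevU.neg_neg GG hs] at h2
  exact ⟨ε, hε, h1, h2⟩

theorem n0_U {u : GLI F} (hu : u ∈ chevG2.posUnipotent F) : n0 F * u * (n0 F)⁻¹ ∈ chevG2.negUnipotent F :=
  ChevStd.nwd_conj_U GG valid0 hl0 hu

theorem n0_V {u : GLI F} (hu : u ∈ chevG2.negUnipotent F) : n0 F * u * (n0 F)⁻¹ ∈ chevG2.posUnipotent F :=
  ChevStd.nwd_conj_V GG valid0 hl0 hu

theorem n0_VV {i : ℕ} (hi : i < chevG2.rank) {u : GLI F} (hu : u ∈ VV chevG2 F i) : n0 F * u * (n0 F)⁻¹ ∈ UU chevG2 F i := by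
  refine ChevU.conj_XS_mem (fun s hs t => ?_) hu
  obtain ⟨ε, -, h1, -⟩ := n0_conj (F := F) (s := s) (negBut_lt s hs)
  rw [h1]
  exact ChevU.xg_mem_XS ((neg_mem_posBut GG hi (negBut_lt s hs)).mpr hs) _

theorem n0_inv {h : GLI F} (hh : h ∈ chevG2.diagonalSubgroup F) : n0 F * h * (n0 F)⁻¹ = h⁻¹ := by
  have hk := conj_mem_diag GG n0_mem hh
  refine ext_rval GG hk (inv_mem hh) fun s => ?_
  rw [rval_inv GG hh]
  -- conjugate `x_{-s}`
  obtain ⟨ε, hε, h1, h2⟩ := n0_conj (F := F) (s := s) s.2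
  have h3 := conj_x GG hh (negF GG s) 1
  have h4 := conj_x GG hk s ε
  have hε0 : ε ≠ 0 := by rcases hε with h | h <;> rw [h] <;> simp
  have h5 : n0 F * h * (n0 F)⁻¹ * xg chevG2 F s ε * (n0 F * h * (n0 F)⁻¹)⁻¹ =
      n0 F * (h * xg chevG2 F (chevG2.neg s) 1 * h⁻¹) * (n0 F)⁻¹ := by
    have := h2 1
    rw [mul_one] at this
    rw [← this]; group
  rw [h4] at h5
  have h6 : h * xg chevG2 F (chevG2.neg s) 1 * h⁻¹ = xg chevG2 F (chevG2.neg s) (rval h (negF GG s) * 1) := h3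
  rw [h6, h2] at h5
  have h7 := ChevRel.xg_inj GG s.2 h5
  have h8 : rval h (negF GG s) = (rval h s)⁻¹ := by
    rw [rval_prod GG hh (negF GG s), rval_prod GG hh s, ← Finset.prod_inv_distrib]
    refine Finset.prod_congr rfl fun j _ => ?_
    rw [rv_negF, zpow_neg]
  rw [h8, mul_one, mul_comm ε] at h7
  exact mul_right_cancel₀ hε0 h7

/-! ### the split case -/

theorem listed : Cfsg.Agent.Lib.ChevBruhat.Listed chevG2 := by simp [Cfsg.Agent.Lib.ChevBruhat.Listed]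

theorem finGL [Finite F] : Finite (GLI F) := by
  have : Finite (Matrix chevG2.Idx chevG2.Idx F) := inferInstanceAs (Finite (chevG2.Idx → chevG2.Idx → F))
  exact Finite.of_injective (fun g : GL chevG2.Idx F => (g : Matrix chevG2.Idx chevG2.Idx F)) Units.val_injective

theorem xU [Finite F] {x : GLI F} (hx : x ∈ chevG2.diagonalSubgroup F) (hreg : ∀ s, rval x s ≠ 1) {u : GLI F}
    (hu : u ∈ chevG2.posUnipotent F) : ∃ a ∈ chevG2.posUnipotent F, a * x * a⁻¹ = x * u :=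
  have := finGL (F := F)
  fpf _ (ChevH.diagonal_le_normalizer_U GG hx) (fun _ hk h => U_eq_one GG listed hx hreg hk h) u hu

theorem xV [Finite F] {x : GLI F} (hx : x ∈ chevG2.diagonalSubgroup F) (hreg : ∀ s, rval x s ≠ 1) {v : GLI F}
    (hv : v ∈ chevG2.negUnipotent F) : ∃ a ∈ chevG2.negUnipotent F, a * x * a⁻¹ = v * x := by
  have := finGL (F := F)
  have hn := ChevH.diagonal_le_normalizer_V GG hx
  have h1 : x⁻¹ * v * x ∈ chevG2.negUnipotent F := by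
    have := (Subgroup.mem_normalizer_iff.mp (inv_mem hn) v).mp hv
    rwa [inv_inv] at this
  obtain ⟨a, ha, h2⟩ := fpf _ hn (fun k hk h => by
    have h3 : (x⁻¹) * (n0 F * k * (n0 F)⁻¹) * (x⁻¹)⁻¹ = n0 F * k * (n0 F)⁻¹ := by
      rw [← n0_inv hx]
      conv_rhs => rw [← h]
      group
    have h4 := U_eq_one GG listed (inv_mem hx) (fun s => by
      rw [rval_inv GG hx]
      exact fun h => hreg s (inv_eq_one.mp h)) (n0_V hk) h3
    have h5 := congrArg (fun y => (n0 F)⁻¹ * y * n0 F) h4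
    simpa [mul_assoc] using h5) _ h1
  exact ⟨a, ha, by rw [h2]; group⟩

theorem two_conj_large [Fintype F] (p : ℕ) [hp : Fact p.Prime] [CharP F p] (h7 : 7 ≤ Fintype.card F) :
    ∃ x : chevG2.group F, ¬ p ∣ orderOf x ∧ ∀ g : chevG2.group F, g ≠ 1 →
      ∃ u v : chevG2.group F, g = (u * x * u⁻¹) * (v * x * v⁻¹) := by
  classical
  obtain ⟨ζ, hζ⟩ := IsCyclic.exists_generator (α := Fˣ)
  have ho : orderOf ζ = Fintype.card F - 1 := by
    rw [orderOf_eq_card_of_forall_mem_zpowers hζ, Nat.card_eq_fintype_card, Fintype.card_units]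
  have h0 : (ζ : F) ≠ 0 := ζ.ne_zero
  have hxm := tor_mem h0 h0
  have hreg : ∀ s, rval (tor (ζ : F) ζ) s ≠ 1 := by
    intro s h
    rw [rval_tor h0 h0, ← zpow_add₀ h0, ← Units.val_zpow_eq_zpow_val] at h
    have h1 : ζ ^ (GG.rv s 0 + GG.rv s 1) = 1 := Units.ext h
    rw [← orderOf_dvd_iff_zpow_eq_one, ho] at h1
    obtain ⟨h2, h3⟩ := rv_table s
    have h4 := Int.le_of_dvd (abs_pos.mpr h2) ((dvd_abs _ _).mpr h1)
    omega
  refine ⟨⟨tor (ζ : F) ζ, H_le_group GG hxm⟩, ?_, fun g hg1 => ?_⟩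
  · have h1 : (tor (ζ : F) ζ) ^ (Fintype.card F - 1) = 1 := by
      refine ext_rval GG (pow_mem hxm _) (one_mem _) fun s => ?_
      rw [rval_pow GG hxm, rval_one GG]
      exact FiniteField.pow_card_sub_one_eq_one _ (rval_ne_zero GG hxm s)
    have h2 : orderOf (⟨tor (ζ : F) ζ, H_le_group GG hxm⟩ : chevG2.group F) ∣ Fintype.card F - 1 :=
      orderOf_dvd_of_pow_eq_one (Subtype.ext h1)
    intro h3
    obtain ⟨n, -, h4⟩ := FiniteField.card F p
    have h5 := h3.trans h2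
    have h6 : p ∣ Fintype.card F := by rw [h4]; exact dvd_pow_self _ n.2.ne'
    have h7 : p ∣ 1 := by
      have := Nat.dvd_sub h6 h5
      rwa [Nat.sub_sub_self (by omega)] at this
    exact hp.out.one_lt.ne' (Nat.dvd_one.mp h7)
  · have h2 : (ζ : F) ^ 2 ≠ 0 := by positivity
    obtain ⟨y, hy, v, hv, u, hu, e⟩ := gauss_large h7 g.2 (fun h => hg1 (Subtype.ext h)) h2 h2
    have h3 : tor ((ζ : F) ^ 2) ((ζ : F) ^ 2) = tor (ζ : F) ζ * tor (ζ : F) ζ := by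
      refine ext_v (tor_mem h2 h2) (mul_mem hxm hxm) ?_ ?_
      · rw [va_tor h2 h2, va_mul hxm hxm, va_tor h0 h0]; ring
      · rw [vb_tor h2 h2, vb_mul hxm hxm, vb_tor h0 h0]; ring
    obtain ⟨a, ha, ea⟩ := xV hxm hreg hv
    obtain ⟨b, hb, eb⟩ := xU hxm hreg hu
    refine ⟨⟨y⁻¹ * a, mul_mem (inv_mem hy) ?_⟩, ⟨y⁻¹ * b, mul_mem (inv_mem hy) (U_le_group GG hb)⟩, Subtype.ext ?_⟩
    · rw [← U_sup_V GG]; exact Subgroup.mem_sup_right ha
    · show (g : GLI F) = (y⁻¹ * a * tor (ζ : F) ζ * (y⁻¹ * a)⁻¹) * (y⁻¹ * b * tor (ζ : F) ζ * (y⁻¹ * b)⁻¹)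
      have h4 : (g : GLI F) = y⁻¹ * (y * g * y⁻¹) * y := by group
      rw [h4, e, h3]
      have h5 : v * (tor (ζ : F) ζ * tor (ζ : F) ζ) * u = (v * tor (ζ : F) ζ) * (tor (ζ : F) ζ * u) := by group
      rw [h5, ← ea, ← eb]
      group

end Cfsg.Agent.Lib.GauCell
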