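import Cfsg.Agent.Lib.GauG2b

set_option autoImplicit false

/-!
# The Levi subgroup of the long root in G2 as an image of GL2 (helper40)
-/

namespace Cfsg.Agent.Lib.GauCell
open Cfsg.Lie Cfsg.Agent.Lib.ChevX Cfsg.Agent.Lib.ChevGood Cfsg.Agent.Lib.ChevRel Cfsg.Agent.Lib.ChevNPerm
  Cfsg.Agent.Lib.ChevTorus Cfsg.Agent.Lib.ChevBN Cfsg.Agent.Lib.SL2Pres Cfsg.Agent.Lib.ChevSL2 Cfsg.Agent.Lib.ChevClosed
open scoped MatrixGroups Matrix

variable {F : Type*} [Field F]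

/-- the matrix with given entries -/
noncomputable def gm (a b c d : F) (h : a * d - b * c ≠ 0) : GL (Fin 2) F :=
  Matrix.GeneralLinearGroup.mkOfDetNeZero !![a, b; c, d] (by rwa [Matrix.det_fin_two_of])

theorem coe_gm (a b c d : F) (h : a * d - b * c ≠ 0) : (gm a b c d h).1 = !![a, b; c, d] := rfl

theorem gl_det (N : GL (Fin 2) F) : N.1 0 0 * N.1 1 1 - N.1 0 1 * N.1 1 0 ≠ 0 := by
  have h1 : IsUnit (N.1).det := (Matrix.isUnit_iff_isUnit_det N.1).mp N.isUnit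
  rw [← Matrix.det_fin_two]
  exact h1.ne_zero

/-- determinant -/
def dt (N : GL (Fin 2) F) : F := N.1 0 0 * N.1 1 1 - N.1 0 1 * N.1 1 0
/-- trace -/
def tc (N : GL (Fin 2) F) : F := N.1 0 0 + N.1 1 1

theorem dt_ne (N : GL (Fin 2) F) : dt N ≠ 0 := gl_det N

theorem gl_ext {N M : GL (Fin 2) F} (h1 : N.1 0 0 = M.1 0 0) (h2 : N.1 0 1 = M.1 0 1) (h3 : N.1 1 0 = M.1 1 0) (h4 : N.1 1 1 = M.1 1 1) :
    N = M := by
  apply Units.ext
  ext i j
  fin_cases i <;> fin_cases j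
  · exact h1
  · exact h2
  · exact h3
  · exact h4

theorem mul00 (N M : GL (Fin 2) F) : (N * M).1 0 0 = N.1 0 0 * M.1 0 0 + N.1 0 1 * M.1 1 0 := by
  show (N.1 * M.1) 0 0 = _
  simp [Matrix.mul_apply, Fin.sum_univ_two]
theorem mul01 (N M : GL (Fin 2) F) : (N * M).1 0 1 = N.1 0 0 * M.1 0 1 + N.1 0 1 * M.1 1 1 := by
  show (N.1 * M.1) 0 1 = _
  simp [Matrix.mul_apply, Fin.sum_univ_two]
theorem mul10 (N M : GL (Fin 2) F) : (N * M).1 1 0 = N.1 1 0 * M.1 0 0 + N.1 1 1 * M.1 1 0 := by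
  show (N.1 * M.1) 1 0 = _
  simp [Matrix.mul_apply, Fin.sum_univ_two]
theorem mul11 (N M : GL (Fin 2) F) : (N * M).1 1 1 = N.1 1 0 * M.1 0 1 + N.1 1 1 * M.1 1 1 := by
  show (N.1 * M.1) 1 1 = _
  simp [Matrix.mul_apply, Fin.sum_univ_two]

theorem dt_mul (N M : GL (Fin 2) F) : dt (N * M) = dt N * dt M := by
  unfold dt
  rw [mul00, mul01, mul10, mul11]; ring

/-- the part in `SL₂` -/
noncomputable def slp (N : GL (Fin 2) F) : SL(2, F) :=
  ⟨!![N.1 0 0 / dt N, N.1 0 1; N.1 1 0 / dt N, N.1 1 1], by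
    have h := dt_ne N
    rw [Matrix.det_fin_two_of, div_mul_eq_mul_div, mul_div_assoc', ← sub_div]
    exact div_self h⟩

theorem slp_mul (N M : GL (Fin 2) F) : slp (N * M) = slp N * dl (dt N) (dt_ne N) (slp M) := by
  have h1 := dt_ne N
  have h2 := dt_ne M
  apply Subtype.ext
  rw [Matrix.SpecialLinearGroup.coe_mul]
  ext i j
  fin_cases i <;> fin_cases j
  · simp [slp, dl, Matrix.mul_apply, Fin.sum_univ_two, dt_mul]
    field_simp
  · have := mul01 N M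
    simp [slp, dl, Matrix.mul_apply, Fin.sum_univ_two] at this ⊢
    field_simp
  · simp [slp, dl, Matrix.mul_apply, Fin.sum_univ_two, dt_mul]
    field_simp
  · have := mul11 N M
    simp [slp, dl, Matrix.mul_apply, Fin.sum_univ_two] at this ⊢
    field_simp

theorem dl_congr {B B' : F} (h : B = B') (hB : B ≠ 0) (hB' : B' ≠ 0) (Z : SL(2, F)) : dl B hB Z = dl B' hB' Z := by
  subst h; rfl

theorem tor_mul {A B A' B' : F} (hA : A ≠ 0) (hB : B ≠ 0) (hA' : A' ≠ 0) (hB' : B' ≠ 0) :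
    tor A B * tor A' B' = tor (A * A') (B * B') := by
  have h1 := tor_mem hA hB
  have h2 := tor_mem hA' hB'
  have n1 : A * A' ≠ 0 := mul_ne_zero hA hA'
  have n2 : B * B' ≠ 0 := mul_ne_zero hB hB'
  refine ext_v (mul_mem h1 h2) (tor_mem n1 n2) ?_ ?_
  · rw [va_mul h1 h2, va_tor hA hB, va_tor hA' hB', va_tor n1 n2]
  · rw [vb_mul h1 h2, vb_tor hA hB, vb_tor hA' hB', vb_tor n1 n2]

theorem tor_one : tor (1 : F) 1 = 1 := by
  have h := tor_mem (one_ne_zero (α := F)) (one_ne_zero (α := F))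
  refine ext_v h (one_mem _) ?_ ?_
  · rw [va_tor one_ne_zero one_ne_zero]
    exact (rval_one GG _).symm
  · rw [vb_tor one_ne_zero one_ne_zero]
    exact (rval_one GG _).symm

/-- the indices of `β` and `-β` -/
theorem simple_b : chevG2.simple (b0 : Fin chevG2.rank) = 6 := by decide
theorem simple_a : chevG2.simple (a0 : Fin chevG2.rank) = 7 := by decide

theorem exists_Phi : ∃ Φ : GL (Fin 2) F →* GLI F,
    (∀ N, Φ N ∈ chevG2.group F) ∧ (∀ N, Φ N ∈ Subgroup.normalizer (UU chevG2 F 1 : Set (GLI F))) ∧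
    (∀ N, Φ N ∈ Subgroup.normalizer (VV chevG2 F 1 : Set (GLI F))) ∧
    (∀ A B c d : F, ∀ hA : A ≠ 0, ∀ hB : B ≠ 0, ∀ h, Φ (gm (A * B) (A * B * d) (c * A * B) (A + c * A * B * d) h) =
      xg chevG2 F 5 c * tor A B * xg chevG2 F 6 d) := by
  obtain ⟨φ, h1, h2⟩ := exists_φ (F := F) GG b0.2
  have hdet : ∀ (N : GL (Fin 2) F) (Z : SL(2, F)), tor 1 (dt N) * φ Z * (tor 1 (dt N))⁻¹ = φ (dl (dt N) (dt_ne N) Z) := by
    intro N Z
    rw [conj_φ GG (i := b0) h1 h2 (tor_mem one_ne_zero (dt_ne N)) Z]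
    rw [dl_congr (show rval (tor 1 (dt N)) (simpF GG b0) = dt N from vb_tor one_ne_zero (dt_ne N))]
  let Φ : GL (Fin 2) F →* GLI F := {
    toFun := fun N => φ (slp N) * tor 1 (dt N)
    map_one' := by
      have e1 : dt (1 : GL (Fin 2) F) = 1 := by simp [dt]
      have e2 : slp (1 : GL (Fin 2) F) = 1 := by
        apply Subtype.ext
        ext i j
        fin_cases i <;> fin_cases j <;> simp [slp, e1]
      rw [e1, e2, map_one, one_mul, tor_one]
    map_mul' := fun N M => by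
      have e1 : tor 1 (dt N) * tor 1 (dt M) = tor 1 (dt (N * M)) := by
        rw [tor_mul one_ne_zero (dt_ne N) one_ne_zero (dt_ne M), dt_mul, one_mul]
      rw [slp_mul, map_mul, ← hdet, ← e1]
      group }
  have hΦ : ∀ N, Φ N = φ (slp N) * tor 1 (dt N) := fun N => rfl
  refine ⟨Φ, fun N => ?_, fun N => ?_, fun N => ?_, fun A B c d hA hB h => ?_⟩
  · rw [hΦ]
    exact mul_mem (φ_mem GG b0.2 h1 h2 _) (H_le_group GG (tor_mem one_ne_zero (dt_ne N)))
  · rw [hΦ]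
    exact mul_mem (φ_norm_UU GG b0.2 h1 h2 _) (H_norm_UU GG (tor_mem one_ne_zero (dt_ne N)))
  · rw [hΦ]
    exact mul_mem (φ_norm_VV GG b0.2 h1 h2 _) (H_norm_VV GG (tor_mem one_ne_zero (dt_ne N)))
  · rw [hΦ]
    set N := gm (A * B) (A * B * d) (c * A * B) (A + c * A * B * d) h with hN
    have e0 : dt N = A ^ 2 * B := by
      simp only [dt, hN, coe_gm, Matrix.cons_val_zero, Matrix.cons_val_one, Matrix.of_apply, Matrix.cons_val', Matrix.cons_val_fin_one]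
      ring
    have n0 : A ^ 2 * B ≠ 0 := by positivity
    have e1 : (slp N).1 0 0 = A⁻¹ := by
      have : (slp N).1 0 0 = A * B / dt N := rfl
      rw [this, e0]; field_simp
    have e2 : (slp N).1 1 0 = c * A⁻¹ := by
      have : (slp N).1 1 0 = c * A * B / dt N := rfl
      rw [this, e0]; field_simp
    have e3 : (slp N).1 0 1 = A * B * d := rfl
    have e4 := SL2_big (slp N) (by rw [e1]; positivity)
    rw [e1, e2, e3] at e4
    have e5 : c * A⁻¹ / A⁻¹ = c := by field_simp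
    have e6 : A * B * d / A⁻¹ = A ^ 2 * B * d := by field_simp
    rw [e5, e6] at e4
    have hs : (slp N) = E' c * hh E E' A⁻¹ * E (A ^ 2 * B * d) := e4
    rw [hs, map_mul, map_mul, h1, h2, hg_eq b0 h1 h2, e0]
    have e7 := conj_x GG (tor_mem one_ne_zero n0) (simpF GG b0) d
    rw [show rval (tor 1 (A ^ 2 * B)) (simpF GG b0) = A ^ 2 * B from vb_tor one_ne_zero n0] at e7
    have e8 : tor 1 (A ^ 2 * B) * xg chevG2 F 6 d * (tor 1 (A ^ 2 * B))⁻¹ = xg chevG2 F (chevG2.simple (b0 : Fin chevG2.rank)) (A ^ 2 * B * d) := e7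
    have e9 : hb A⁻¹ * tor 1 (A ^ 2 * B) = tor A B := by
      have hA' : A⁻¹ ≠ 0 := by positivity
      refine ext_v (mul_mem (hb_mem hA') (tor_mem one_ne_zero n0)) (tor_mem hA hB) ?_ ?_
      · rw [va_mul (hb_mem hA') (tor_mem one_ne_zero n0)]
        have := va_hb hA'
        rw [this, va_tor one_ne_zero n0, va_tor hA hB, zpow_neg, zpow_one, inv_inv, mul_one]
      · rw [vb_mul (hb_mem hA') (tor_mem one_ne_zero n0)]
        have := vb_hb hA'
        rw [this, vb_tor one_ne_zero n0, vb_tor hA hB]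
        have : (A⁻¹) ^ (2 : ℤ) = (A⁻¹) ^ 2 := by norm_cast
        rw [this]; field_simp
    rw [← e8, ← e9]
    have e10 : chevG2.neg (chevG2.simple (b0 : Fin chevG2.rank)) = 5 := by decide
    rw [e10]
    unfold hb
    group

/-- the Levi subgroup -/
noncomputable def Phi : GL (Fin 2) F →* GLI F := Classical.choose exists_Phi

theorem Phi_group (N : GL (Fin 2) F) : Phi N ∈ chevG2.group F := (Classical.choose_spec (exists_Phi (F := F))).1 N
theorem Phi_UU (N : GL (Fin 2) F) : Phi N ∈ Subgroup.normalizer (UU chevG2 F 1 : Set (GLI F)) :=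
  (Classical.choose_spec (exists_Phi (F := F))).2.1 N
theorem Phi_VV (N : GL (Fin 2) F) : Phi N ∈ Subgroup.normalizer (VV chevG2 F 1 : Set (GLI F)) :=
  (Classical.choose_spec (exists_Phi (F := F))).2.2.1 N
theorem Phi_gm {A B : F} (hA : A ≠ 0) (hB : B ≠ 0) (c d : F) (h : A * B * (A + c * A * B * d) - A * B * d * (c * A * B) ≠ 0) :
    Phi (gm (A * B) (A * B * d) (c * A * B) (A + c * A * B * d) h) = xg chevG2 F 5 c * tor A B * xg chevG2 F 6 d :=
  (Classical.choose_spec (exists_Phi (F := F))).2.2.2 A B c d hA hB h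

theorem Phi_of {A B c d : F} (hA : A ≠ 0) (hB : B ≠ 0) {N : GL (Fin 2) F} (h1 : N.1 0 0 = A * B) (h2 : N.1 0 1 = A * B * d)
    (h3 : N.1 1 0 = c * A * B) (h4 : N.1 1 1 = A + c * A * B * d) : Phi N = xg chevG2 F 5 c * tor A B * xg chevG2 F 6 d := by
  have h : A * B * (A + c * A * B * d) - A * B * d * (c * A * B) ≠ 0 := by
    have : A * B * (A + c * A * B * d) - A * B * d * (c * A * B) = A ^ 2 * B := by ring
    rw [this]; positivity
  rw [← Phi_gm hA hB c d h]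
  congr 1
  exact gl_ext h1 h2 h3 h4

/-- good elements of the Levi subgroup -/
def Gd (x : GLI F) (N : GL (Fin 2) F) : Prop :=
  (∃ y ∈ chevG2.group F, Phi N = y * x * y⁻¹) ∧ (∀ k ∈ UU chevG2 F 1, Phi N * k * (Phi N)⁻¹ = k → k = 1) ∧
    (∀ k ∈ VV chevG2 F 1, Phi N * k * (Phi N)⁻¹ = k → k = 1)

theorem Gd.conj {x : GLI F} {N : GL (Fin 2) F} (h : Gd x N) (Y : GL (Fin 2) F) : Gd x (Y * N * Y⁻¹) := by
  obtain ⟨⟨y, hy, e⟩, h1, h2⟩ := h
  refine ⟨⟨Phi Y * y, mul_mem (Phi_group Y) hy, by rw [map_mul, map_mul, map_inv, e]; group⟩, fun k hk hk2 => ?_, fun k hk hk2 => ?_⟩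
  · have h3 := (Subgroup.mem_normalizer_iff.mp (inv_mem (Phi_UU Y)) k).mp hk
    rw [inv_inv] at h3
    have h4 := h1 _ h3 (by
      rw [map_mul, map_mul, map_inv] at hk2
      conv_rhs => rw [← hk2]
      group)
    have h5 := congrArg (fun z => Phi Y * z * (Phi Y)⁻¹) h4
    simpa [mul_assoc] using h5
  · have h3 := (Subgroup.mem_normalizer_iff.mp (inv_mem (Phi_VV Y)) k).mp hk
    rw [inv_inv] at h3
    have h4 := h2 _ h3 (by
      rw [map_mul, map_mul, map_inv] at hk2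
      conv_rhs => rw [← hk2]
      group)
    have h5 := congrArg (fun z => Phi Y * z * (Phi Y)⁻¹) h4
    simpa [mul_assoc] using h5

theorem n0_UU {i : ℕ} (hi : i < chevG2.rank) {u : GLI F} (hu : u ∈ UU chevG2 F i) : n0 F * u * (n0 F)⁻¹ ∈ VV chevG2 F i := by
  refine ChevU.conj_XS_mem (fun s hs t => ?_) hu
  have hlt := posBut_lt s hs
  obtain ⟨ε, -, h1, -⟩ := n0_conj (F := F) (s := s) hlt
  rw [h1]
  refine ChevU.xg_mem_XS ((neg_mem_posBut GG hi (ChevU.neg_lt GG hlt)).mp ?_) _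
  rwa [ChevU.neg_neg GG hlt]

theorem n0_UU' {i : ℕ} (hi : i < chevG2.rank) {u : GLI F} (hu : u ∈ UU chevG2 F i) : (n0 F)⁻¹ * u * n0 F ∈ VV chevG2 F i := by
  have key : (n0 F)⁻¹ * u * ((n0 F)⁻¹)⁻¹ ∈ VV chevG2 F i := by
    refine ChevU.conj_XS_mem (fun s hs t => ?_) hu
    have hlt := posBut_lt s hs
    obtain ⟨ε, hε, -, h2⟩ := n0_conj (F := F) (s := s) hlt
    have e1 : (n0 F)⁻¹ * xg chevG2 F s t * ((n0 F)⁻¹)⁻¹ = xg chevG2 F (chevG2.neg s) (ε * t) := by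
      have e2 := h2 (ε * t)
      have e3 : ε * (ε * t) = t := by rcases hε with h | h <;> rw [h] <;> ring
      rw [e3] at e2
      rw [← e2]; group
    rw [e1]
    refine ChevU.xg_mem_XS ((neg_mem_posBut GG hi (ChevU.neg_lt GG hlt)).mp ?_) _
    rwa [ChevU.neg_neg GG hlt]
  rwa [inv_inv] at key

theorem n0_VV' {i : ℕ} (hi : i < chevG2.rank) {u : GLI F} (hu : u ∈ VV chevG2 F i) : (n0 F)⁻¹ * u * n0 F ∈ UU chevG2 F i := by
  have key : (n0 F)⁻¹ * u * ((n0 F)⁻¹)⁻¹ ∈ UU chevG2 F i := by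
    refine ChevU.conj_XS_mem (fun s hs t => ?_) hu
    have hlt := negBut_lt s hs
    obtain ⟨ε, hε, -, h2⟩ := n0_conj (F := F) (s := s) hlt
    have e1 : (n0 F)⁻¹ * xg chevG2 F s t * ((n0 F)⁻¹)⁻¹ = xg chevG2 F (chevG2.neg s) (ε * t) := by
      have e2 := h2 (ε * t)
      have e3 : ε * (ε * t) = t := by rcases hε with h | h <;> rw [h] <;> ring
      rw [e3] at e2
      rw [← e2]; group
    rw [e1]
    exact ChevU.xg_mem_XS ((neg_mem_posBut GG hi hlt).mpr hs) _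
  rwa [inv_inv] at key

/-- the dual of a good element -/
theorem Gd.dual {x : GLI F} {N M : GL (Fin 2) F} (h : Gd x N) (hM : Phi M = n0 F * Phi N * (n0 F)⁻¹) : Gd x M := by
  obtain ⟨⟨y, hy, e⟩, h1, h2⟩ := h
  have hN : Phi N = (n0 F)⁻¹ * Phi M * n0 F := by rw [hM]; group
  refine ⟨⟨n0 F * y, mul_mem n0_group hy, by rw [hM, e]; group⟩, fun k hk hk2 => ?_, fun k hk hk2 => ?_⟩
  · have h4 := h2 _ (n0_UU' (by decide) hk) (by
      rw [hN]
      conv_rhs => rw [← hk2]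
      group)
    have h5 := congrArg (fun z => n0 F * z * (n0 F)⁻¹) h4
    simpa [mul_assoc] using h5
  · have h4 := h1 _ (n0_VV' (by decide) hk) (by
      rw [hN]
      conv_rhs => rw [← hk2]
      group)
    have h5 := congrArg (fun z => n0 F * z * (n0 F)⁻¹) h4
    simpa [mul_assoc] using h5

/-- products of two good elements -/
def Pd (x : GLI F) (N : GL (Fin 2) F) : Prop := ∃ M1 M2, Gd x M1 ∧ Gd x M2 ∧ N = M1 * M2

theorem Pd.conj {x : GLI F} {N : GL (Fin 2) F} (h : Pd x N) (Y : GL (Fin 2) F) : Pd x (Y * N * Y⁻¹) := by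
  obtain ⟨M1, M2, h1, h2, e⟩ := h
  exact ⟨_, _, h1.conj Y, h2.conj Y, by rw [e]; group⟩

/-- covering -/
theorem Pd.cover [Finite F] {x g : GLI F} {N : GL (Fin 2) F} (h : Pd x N) {y v u : GLI F} (hy : y ∈ chevG2.group F)
    (hv : v ∈ VV chevG2 F 1) (hu : u ∈ UU chevG2 F 1) (e : y * g * y⁻¹ = v * Phi N * u) :
    ∃ a ∈ chevG2.group F, ∃ b ∈ chevG2.group F, g = (a * x * a⁻¹) * (b * x * b⁻¹) := by
  have := finGL (F := F)
  obtain ⟨M1, M2, ⟨⟨y1, hy1, e1⟩, h1, h1'⟩, ⟨⟨y2, hy2, e2⟩, h2, h2'⟩, rfl⟩ := h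
  have hv' : (Phi M1)⁻¹ * v * Phi M1 ∈ VV chevG2 F 1 := by
    have := (Subgroup.mem_normalizer_iff.mp (inv_mem (Phi_VV M1)) v).mp hv
    rwa [inv_inv] at this
  obtain ⟨a, ha, ea⟩ := fpf _ (Phi_VV M1) h1' _ hv'
  obtain ⟨b, hb, eb⟩ := fpf _ (Phi_UU M2) h2 _ hu
  have ha' : a ∈ chevG2.group F := by rw [← U_sup_V GG]; exact Subgroup.mem_sup_right (VV_le GG ha)
  have hb' : b ∈ chevG2.group F := U_le_group GG (UU_le GG hb)
  refine ⟨y⁻¹ * a * y1, mul_mem (mul_mem (inv_mem hy) ha') hy1, y⁻¹ * b * y2, mul_mem (mul_mem (inv_mem hy) hb') hy2, ?_⟩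
  have h4 : g = y⁻¹ * (y * g * y⁻¹) * y := by group
  have h5 : v * Phi (M1 * M2) * u = (Phi M1 * ((Phi M1)⁻¹ * v * Phi M1)) * (Phi M2 * u) := by rw [map_mul]; group
  rw [h4, e, h5, ← ea, ← eb, e1, e2]
  group

/-! ### conjugacy in `GL₂` -/

/-- companion matrices -/
noncomputable def cp (t δ : F) (h : δ ≠ 0) : GL (Fin 2) F := gm 0 (-δ) 1 t (by simpa using h)

theorem conj_cp (N : GL (Fin 2) F) (h : N.1 1 0 ≠ 0 ∨ N.1 0 1 ≠ 0 ∨ N.1 0 0 ≠ N.1 1 1) {t δ : F} (hδ : δ ≠ 0) (ht : tc N = t)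
    (hd : dt N = δ) : ∃ P : GL (Fin 2) F, N = P * cp t δ hδ * P⁻¹ := by
  subst ht hd
  have key : ∀ P : GL (Fin 2) F, N * P = P * cp (tc N) (dt N) hδ → ∃ P : GL (Fin 2) F, N = P * cp (tc N) (dt N) hδ * P⁻¹ :=
    fun P hP => ⟨P, by rw [← hP]; group⟩
  by_cases h1 : N.1 1 0 = 0
  · by_cases h2 : N.1 0 1 = 0
    · have h3 : N.1 0 0 ≠ N.1 1 1 := by tauto
      refine key (gm 1 (N.1 0 0) 1 (N.1 1 1) (by
        intro h; apply h3; linear_combination -h)) (gl_ext ?_ ?_ ?_ ?_)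
      all_goals
        simp only [mul00, mul01, mul10, mul11, coe_gm, cp, Matrix.cons_val_zero, Matrix.cons_val_one, Matrix.of_apply,
          Matrix.cons_val', Matrix.cons_val_fin_one, tc, dt, h1, h2]
        ring
    · refine key (gm 0 (N.1 0 1) 1 (N.1 1 1) (by
        intro h; apply h2; linear_combination -h)) (gl_ext ?_ ?_ ?_ ?_)
      all_goals
        simp only [mul00, mul01, mul10, mul11, coe_gm, cp, Matrix.cons_val_zero, Matrix.cons_val_one, Matrix.of_apply,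
          Matrix.cons_val', Matrix.cons_val_fin_one, tc, dt, h1]
        ring
  · refine key (gm 1 (N.1 0 0) 0 (N.1 1 0) (by
      intro h; apply h1; linear_combination h)) (gl_ext ?_ ?_ ?_ ?_)
    all_goals
      simp only [mul00, mul01, mul10, mul11, coe_gm, cp, Matrix.cons_val_zero, Matrix.cons_val_one, Matrix.of_apply,
        Matrix.cons_val', Matrix.cons_val_fin_one, tc, dt]
      ring

end Cfsg.Agent.Lib.GauCell
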