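import Cfsg.Agent.Lib.GauZ

set_option autoImplicit false

/-!
# Products of two good elements in GL2 over small fields (helper40)
-/

namespace Cfsg.Agent.Lib.GauCell
open Cfsg.Lie Cfsg.Agent.Lib.ChevX Cfsg.Agent.Lib.ChevGood Cfsg.Agent.Lib.ChevRel Cfsg.Agent.Lib.ChevNPerm
  Cfsg.Agent.Lib.ChevTorus Cfsg.Agent.Lib.ChevBN Cfsg.Agent.Lib.SL2Pres Cfsg.Agent.Lib.ChevSL2 Cfsg.Agent.Lib.ChevClosed
open scoped MatrixGroups Matrix

variable {F : Type*} [Field F]

theorem scal_or (N : GL (Fin 2) F) : (N.1 1 0 ≠ 0 ∨ N.1 0 1 ≠ 0 ∨ N.1 0 0 ≠ N.1 1 1) ∨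
    (N.1 1 0 = 0 ∧ N.1 0 1 = 0 ∧ ∃ s, N.1 0 0 = s ∧ N.1 1 1 = s ∧ s * s = dt N) := by
  by_cases h1 : N.1 1 0 = 0
  · by_cases h2 : N.1 0 1 = 0
    · by_cases h3 : N.1 0 0 = N.1 1 1
      · refine Or.inr ⟨h1, h2, _, rfl, h3.symm, ?_⟩
        unfold dt
        rw [h1, ← h3]; ring
      · exact Or.inl (Or.inr (Or.inr h3))
    · exact Or.inl (Or.inr (Or.inl h2))
  · exact Or.inl (Or.inl h1)

theorem pd3 {x : GLI F} (h3 : (3 : F) = 0) (hF : ∀ t : F, t = 0 ∨ t = 1 ∨ t = -1) (hb : Base x (-1)) {N : GL (Fin 2) F}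
    (hN : dt N = 1) : Pd x N := by
  have hi : (-1 : F)⁻¹ = -1 := by rw [inv_neg, inv_one]
  have a1 : Adm (-1 : F) 1 (-1) := Or.inl ⟨rfl, rfl⟩
  have a2 : Adm (-1 : F) (-1) (-1) := Or.inr ⟨hi.symm, hi.symm⟩
  rcases scal_or N with h | ⟨h1, h2, s, h4, h5, h6⟩
  · rcases hF (tc N) with ht | ht | ht
    · exact hb.prod h (a := -1) (b := -1) (c := 1) (d := -1) a1 a1 (by grind) (by grind) (by rw [hN, ht]; grind) (by rw [hN]; grind)
    · exact hb.prod h (a := 1) (b := 1) (c := 1) (d := 0) a1 a2 (by grind) (by grind) (by rw [hN, ht]; grind) (by rw [hN]; grind)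
    · exact hb.prod h (a := 1) (b := 1) (c := 1) (d := 0) a1 a1 (by grind) (by grind) (by rw [hN, ht]; grind) (by rw [hN]; grind)
  · refine hb.scal ?_ h1 h2 h4 h5
    rcases hF s with rfl | rfl | rfl
    · rw [hN] at h6; simp at h6
    · exact Or.inl rfl
    · exact Or.inr (Or.inl rfl)

theorem pd5 {x : GLI F} (h3 : (5 : F) = 0) (hF : ∀ t : F, t = 0 ∨ t = 1 ∨ t = 2 ∨ t = 3 ∨ t = 4) (hb : Base x 2) {N : GL (Fin 2) F}
    (hN : dt N = 4) : Pd x N := by
  have h0 := hb.h0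
  have h1 : (1 : F) ≠ 0 := one_ne_zero
  have hi : (2 : F)⁻¹ = 3 := by
    rw [inv_eq_iff_eq_inv, eq_comm]
    apply inv_eq_of_mul_eq_one_left
    linear_combination h3
  have a1 : Adm (2 : F) 1 2 := Or.inl ⟨rfl, rfl⟩
  have a2 : Adm (2 : F) 3 3 := Or.inr ⟨hi.symm, hi.symm⟩
  rcases scal_or N with h | ⟨h1, h2, s, h4, h5, h6⟩
  · rcases hF (tc N) with ht | ht | ht | ht | ht
    · exact hb.prod h (a := 2) (b := 4) (c := 4) (d := 4) a1 a1 (by grind) (by grind) (by rw [hN, ht]; grind) (by rw [hN]; grind)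
    · exact hb.prod h (a := 1) (b := 3) (c := 1) (d := 0) a1 a1 (by grind) (by grind) (by rw [hN, ht]; grind) (by rw [hN]; grind)
    · exact hb.prod h (a := 2) (b := 1) (c := 1) (d := 4) a1 a1 (by grind) (by grind) (by rw [hN, ht]; grind) (by rw [hN]; grind)
    · exact hb.prod h (a := 1) (b := 4) (c := 2) (d := 0) a1 a1 (by grind) (by grind) (by rw [hN, ht]; grind) (by rw [hN]; grind)
    · exact hb.prod h (a := 1) (b := 4) (c := 1) (d := 2) a2 a2 (by grind) (by grind) (by rw [hN, ht]; grind) (by rw [hN]; grind)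
  · refine hb.scal ?_ h1 h2 h4 h5
    rw [hN] at h6
    have h7 : (s - 2) * (s - 3) * 1 = 0 ∨ s = 0 ∨ s = 1 ∨ s = 4 := by
      rcases hF s with rfl | rfl | rfl | rfl | rfl
      · simp
      · simp
      · simp
      · simp
      · simp
    have h1' : (1 : F) ≠ 0 := one_ne_zero
    rcases hF s with rfl | rfl | rfl | rfl | rfl
    · exfalso; grind
    · exfalso; grind
    · exact Or.inr (Or.inl rfl)
    · exact Or.inr (Or.inr hi.symm)
    · exfalso; grind

theorem pd4 {x : GLI F} {ω : F} (h2 : (2 : F) = 0) (hω : ω ^ 2 + ω + 1 = 0) (hF : ∀ t : F, t = 0 ∨ t = 1 ∨ t = ω ∨ t = ω + 1)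
    (hb : Base x ω) {N : GL (Fin 2) F} (hN : tc N ≠ 0 ∨ (N.1 1 0 = 0 ∧ N.1 0 1 = 0 ∧ N.1 0 0 = N.1 1 1)) : Pd x N := by
  have h0 := hb.h0
  have hi : ω⁻¹ = ω + 1 := by
    rw [inv_eq_iff_eq_inv, eq_comm]
    apply inv_eq_of_mul_eq_one_left
    linear_combination hω - h2
  have a1 : Adm ω 1 ω := Or.inl ⟨rfl, rfl⟩
  have a2 : Adm ω (ω + 1) (ω + 1) := Or.inr ⟨hi.symm, hi.symm⟩
  rcases scal_or N with h | ⟨h1, h2', s, h4, h5, h6⟩
  · have ht0 : tc N ≠ 0 := by
      rcases hN with h' | ⟨e1, e2, e3⟩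
      · exact h'
      · exfalso; tauto
    have hd0 := dt_ne N
    rcases hF (dt N) with hd | hd | hd | hd
    · exact absurd hd hd0
    · rcases hF (tc N) with ht | ht | ht | ht
      · exact absurd ht ht0
      · exact hb.prod h (a := 1) (b := ω + 1) (c := ω + 1) (d := 0) a1 a2 (by grind) (by grind) (by rw [hd, ht]; grind) (by rw [hd]; grind)
      · exact hb.prod h (a := 1) (b := ω) (c := 1) (d := 0) a1 a2 (by grind) (by grind) (by rw [hd, ht]; grind) (by rw [hd]; grind)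
      · exact hb.prod h (a := ω) (b := ω) (c := ω) (d := ω + 1) a1 a2 (by grind) (by grind) (by rw [hd, ht]; grind) (by rw [hd]; grind)
    · rcases hF (tc N) with ht | ht | ht | ht
      · exact absurd ht ht0
      · exact hb.prod h (a := 1) (b := 1) (c := 1) (d := ω) a2 a2 (by grind) (by grind) (by rw [hd, ht]; grind) (by rw [hd]; grind)
      · exact hb.prod h (a := 1) (b := ω + 1) (c := ω) (d := ω) a2 a2 (by grind) (by grind) (by rw [hd, ht]; grind) (by rw [hd]; grind)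
      · exact hb.prod h (a := ω + 1) (b := 1) (c := ω + 1) (d := 0) a2 a2 (by grind) (by grind) (by rw [hd, ht]; grind) (by rw [hd]; grind)
    · rcases hF (tc N) with ht | ht | ht | ht
      · exact absurd ht ht0
      · exact hb.prod h (a := ω) (b := ω + 1) (c := 1) (d := ω + 1) a1 a1 (by grind) (by grind) (by rw [hd, ht]; grind) (by rw [hd]; grind)
      · exact hb.prod h (a := 1) (b := 1) (c := ω) (d := 0) a1 a1 (by grind) (by grind) (by rw [hd, ht]; grind) (by rw [hd]; grind)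
      · exact hb.prod h (a := ω) (b := ω) (c := ω) (d := ω + 1) a1 a1 (by grind) (by grind) (by rw [hd, ht]; grind) (by rw [hd]; grind)
  · refine hb.scal ?_ h1 h2' h4 h5
    rcases hF s with rfl | rfl | rfl | rfl
    · exact absurd (by rw [← h6]; ring) (dt_ne N)
    · exact Or.inl rfl
    · exact Or.inr (Or.inl rfl)
    · exact Or.inr (Or.inr hi.symm)

/-- states with prescribed determinant -/
theorem exists_det [Fintype F] (h3 : 3 ≤ Fintype.card F) {g : GLI F} (hg' : g ∈ chevG2.group F) (hg1 : g ≠ 1) {δ : F} (hδ : δ ≠ 0) :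
    ∃ A B : F, A ≠ 0 ∧ B ≠ 0 ∧ A ^ 2 * B = δ ∧ St chevG2 F g (tor A B) := by
  classical
  obtain ⟨i, h, hh, hnc⟩ := exists_NC GG (card_cond h3) hg' hg1
  rw [eq_tor hh] at hnc
  set A0 := va h
  set B0 := vb h
  have hA0 : A0 ≠ 0 := va_ne hh
  have hB0 : B0 ≠ 0 := vb_ne hh
  have key : ∀ A B : F, A ≠ 0 → B ≠ 0 → NC GG a0 g (tor A B) → ∃ A B : F, A ≠ 0 ∧ B ≠ 0 ∧ A ^ 2 * B = δ ∧ St chevG2 F g (tor A B) := by
    intro A B hA hB hn
    have hs : δ / (A ^ 2 * B) ≠ 0 := by positivity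
    refine ⟨_, _, ?_, ?_, ?_, mv_a hA hB hn hs⟩
    · positivity
    · positivity
    · field_simp
  obtain ⟨i, hi⟩ := i
  change i < 2 at hi
  interval_cases i
  · exact key A0 B0 hA0 hB0 hnc
  · have hnc : NC GG b0 g (tor A0 B0) := hnc
    by_cases h1 : A0 = 1
    · obtain ⟨s, hs⟩ : ∃ s : F, s ∉ ({0, 1} : Finset F) := by
        by_contra hno
        push Not at hno
        have h4 : Fintype.card F ≤ ({0, 1} : Finset F).card := by
          rw [← Finset.card_univ]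
          exact Finset.card_le_card fun s _ => hno s
        have h5 : ({0, 1} : Finset F).card ≤ 2 := Finset.card_le_two
        omega
      simp only [Finset.mem_insert, Finset.mem_singleton, not_or] at hs
      have n1 : A0 * s⁻¹ ≠ 0 := mul_ne_zero hA0 (inv_ne_zero hs.1)
      have n2 : B0 * s ^ 2 ≠ 0 := mul_ne_zero hB0 (pow_ne_zero 2 hs.1)
      refine key _ _ n1 n2 (st_nc_a n1 n2 (mv_b hA0 hB0 hnc hs.1) fun h => hs.2 ?_)
      rw [h1, one_mul] at h
      rw [← inv_inv s, h, inv_one]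
    · exact key A0 B0 hA0 hB0 (st_nc_a hA0 hB0 hnc.st h1)

/-- the Levi component of a state -/
theorem St.levi {g : GLI F} {A B : F} (hA : A ≠ 0) (hB : B ≠ 0) (h : St chevG2 F g (tor A B)) :
    ∃ y ∈ chevG2.group F, ∃ v ∈ VV chevG2 F 1, ∃ u ∈ UU chevG2 F 1, ∃ N : GL (Fin 2) F, y * g * y⁻¹ = v * Phi N * u ∧ dt N = A ^ 2 * B := by
  obtain ⟨y, hy, v, hv', u, hu, e⟩ := h
  obtain ⟨v, hv2, c, rfl⟩ := exists_V_dec GG (i := 1) (by decide) hv'
  obtain ⟨d, u, hu2, rfl⟩ := exists_U_dec GG (i := 1) (by decide) hu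
  have n1 : A * B * (A + c * A * B * d) - A * B * d * (c * A * B) ≠ 0 := by
    have : A * B * (A + c * A * B * d) - A * B * d * (c * A * B) = A ^ 2 * B := by ring
    rw [this]; positivity
  refine ⟨y, hy, v, hv2, u, hu2, gm (A * B) (A * B * d) (c * A * B) (A + c * A * B * d) n1, ?_, ?_⟩
  · rw [Phi_gm hA hB, e]
    have e1 : chevG2.neg (chevG2.simple 1) = 5 := by decide
    have e2 : chevG2.simple 1 = 6 := by decide
    rw [e1, e2]; group
  · simp only [dt, coe_gm, Matrix.cons_val_zero, Matrix.cons_val_one, Matrix.of_apply, Matrix.cons_val', Matrix.cons_val_fin_one]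
    ring

theorem cover_det [Fintype F] (h3 : 3 ≤ Fintype.card F) {x : GLI F} {δ : F} (hδ : δ ≠ 0) (hP : ∀ N : GL (Fin 2) F, dt N = δ → Pd x N)
    {g : GLI F} (hg' : g ∈ chevG2.group F) (hg1 : g ≠ 1) :
    ∃ a ∈ chevG2.group F, ∃ b ∈ chevG2.group F, g = (a * x * a⁻¹) * (b * x * b⁻¹) := by
  obtain ⟨A, B, hA, hB, h1, h2⟩ := exists_det h3 hg' hg1 hδ
  obtain ⟨y, hy, v, hv, u, hu, N, e1, e2⟩ := h2.levi hA hB
  exact (hP N (e2.trans h1)).cover hy hv hu e1

end Cfsg.Agent.Lib.GauCell
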