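import Cfsg.Agent.Lib.GauPhi

set_option autoImplicit false

/-!
# Good elements of the Levi subgroup of the long root in G2 (helper40)
-/

namespace Cfsg.Agent.Lib.GauCell
open Cfsg.Lie Cfsg.Agent.Lib.ChevX Cfsg.Agent.Lib.ChevGood Cfsg.Agent.Lib.ChevRel Cfsg.Agent.Lib.ChevNPerm
  Cfsg.Agent.Lib.ChevTorus Cfsg.Agent.Lib.ChevBN Cfsg.Agent.Lib.SL2Pres Cfsg.Agent.Lib.ChevSL2 Cfsg.Agent.Lib.ChevClosed
open scoped MatrixGroups Matrix

variable {F : Type*} [Field F]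

theorem Phi_upper (d : F) : Phi (gm 1 d 0 1 (by simp)) = xg chevG2 F 6 d := by
  rw [Phi_of (A := 1) (B := 1) (c := 0) (d := d) one_ne_zero one_ne_zero (by simp [coe_gm]) (by simp [coe_gm]) (by simp [coe_gm])
    (by simp [coe_gm]), tor_one, xg_zero GG]
  simp

theorem Phi_lower (c : F) : Phi (gm 1 0 c 1 (by simp)) = xg chevG2 F 5 c := by
  rw [Phi_of (A := 1) (B := 1) (c := c) (d := 0) one_ne_zero one_ne_zero (by simp [coe_gm]) (by simp [coe_gm]) (by simp [coe_gm])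
    (by simp [coe_gm]), tor_one, xg_zero GG]
  simp

theorem Phi_diag {a b : F} (ha : a ≠ 0) (hb : b ≠ 0) : Phi (gm a 0 0 b (by simpa using ⟨ha, hb⟩)) = tor b (a / b) := by
  rw [Phi_of (A := b) (B := a / b) (c := 0) (d := 0) hb (div_ne_zero ha hb) (by simp [coe_gm]; field_simp) (by simp [coe_gm])
    (by simp [coe_gm]) (by simp [coe_gm]), xg_zero GG, xg_zero GG]
  simp

theorem tor_inv {A B : F} (hA : A ≠ 0) (hB : B ≠ 0) : (tor A B)⁻¹ = tor A⁻¹ B⁻¹ := by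
  rw [inv_eq_iff_mul_eq_one, tor_mul hA hB (inv_ne_zero hA) (inv_ne_zero hB), mul_inv_cancel₀ hA, mul_inv_cancel₀ hB, tor_one]

/-- the basic elements -/
noncomputable def XX (ν : F) (h : ν ≠ 0) : GL (Fin 2) F := gm 1 (-ν) 1 0 (by simpa using h)

theorem Phi_XX {ν : F} (h : ν ≠ 0) : Phi (XX ν h) = xg chevG2 F 5 1 * tor ν ν⁻¹ * xg chevG2 F 6 (-ν) := by
  refine Phi_of h (inv_ne_zero h) ?_ ?_ ?_ ?_
  all_goals simp [XX, coe_gm, h]

/-- conjugacy of nonscalar matrices -/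
theorem Gd.of_conj {x : GLI F} {N M : GL (Fin 2) F} (h : Gd x N) (hN : N.1 1 0 ≠ 0 ∨ N.1 0 1 ≠ 0 ∨ N.1 0 0 ≠ N.1 1 1)
    (hM : M.1 1 0 ≠ 0 ∨ M.1 0 1 ≠ 0 ∨ M.1 0 0 ≠ M.1 1 1) (h1 : tc M = tc N) (h2 : dt M = dt N) : Gd x M := by
  obtain ⟨P, hP⟩ := conj_cp N hN (dt_ne N) rfl rfl
  obtain ⟨Q, hQ⟩ := conj_cp M hM (dt_ne N) h1 h2
  have h3 : M = (Q * P⁻¹) * N * (Q * P⁻¹)⁻¹ := by
    rw [hQ]
    conv_rhs => rw [hP]
    group
  rw [h3]
  exact h.conj _

theorem Pd.of_conj {x : GLI F} {N M : GL (Fin 2) F} (h : Pd x N) (hN : N.1 1 0 ≠ 0 ∨ N.1 0 1 ≠ 0 ∨ N.1 0 0 ≠ N.1 1 1)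
    (hM : M.1 1 0 ≠ 0 ∨ M.1 0 1 ≠ 0 ∨ M.1 0 0 ≠ M.1 1 1) (h1 : tc M = tc N) (h2 : dt M = dt N) : Pd x M := by
  obtain ⟨P, hP⟩ := conj_cp N hN (dt_ne N) rfl rfl
  obtain ⟨Q, hQ⟩ := conj_cp M hM (dt_ne N) h1 h2
  have h3 : M = (Q * P⁻¹) * N * (Q * P⁻¹)⁻¹ := by
    rw [hQ]
    conv_rhs => rw [hP]
    group
  rw [h3]
  exact h.conj _

/-- the basic hypothesis -/
structure Base (x : GLI F) (ν : F) : Prop where
  h0 : ν ≠ 0
  irr : ∀ s : F, s * s - s + ν ≠ 0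
  X : Gd x (XX ν h0)

/-- admissible pairs (trace, determinant) -/
def Adm (ν τ δ : F) : Prop := (τ = 1 ∧ δ = ν) ∨ (τ = ν⁻¹ ∧ δ = ν⁻¹)

theorem Adm.ns {x : GLI F} {ν : F} (hb : Base x ν) {N : GL (Fin 2) F} (h : Adm ν (tc N) (dt N)) :
    N.1 1 0 ≠ 0 ∨ N.1 0 1 ≠ 0 ∨ N.1 0 0 ≠ N.1 1 1 := by
  by_contra hno
  push Not at hno
  obtain ⟨h1, h2, h3⟩ := hno
  have h4 : tc N = N.1 0 0 + N.1 0 0 := by unfold tc; rw [← h3]
  have h5 : dt N = N.1 0 0 * N.1 0 0 := by unfold dt; rw [← h3, h1]; ring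
  rw [h4, h5] at h
  set s := N.1 0 0
  have hs : s ≠ 0 := fun h => dt_ne N (by rw [h5, h]; ring)
  rcases h with ⟨e1, e2⟩ | ⟨e1, e2⟩
  · apply hb.irr s
    rw [← e2]
    linear_combination s * e1
  · apply hb.irr s⁻¹
    have e3 : ν = (s * s)⁻¹ := by rw [e2, inv_inv]
    rw [e3]
    have e4 : s + s = s * s := by rw [e1, e2]
    have e5 : s = 2 := mul_left_cancel₀ hs (by linear_combination -e4)
    have e6 : s⁻¹ * s⁻¹ - s⁻¹ + (s * s)⁻¹ = (2 - s) / (s * s) := by field_simp; ring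
    rw [e6, ← e5, sub_self, zero_div]

theorem Base.good {x : GLI F} {ν : F} (hb : Base x ν) {N : GL (Fin 2) F} (h : Adm ν (tc N) (dt N)) : Gd x N := by
  have hns := h.ns hb
  have h0 := hb.h0
  rcases h with ⟨e1, e2⟩ | ⟨e1, e2⟩
  · refine hb.X.of_conj (Or.inl (by simp [XX, coe_gm])) hns ?_ ?_
    · rw [e1]; simp [tc, XX, coe_gm]
    · rw [e2]; simp [dt, XX, coe_gm]
  · obtain ⟨ε, hε, h1, h2⟩ := n0_conj (F := F) (s := 6) (by decide)
    have hε0 : ε ≠ 0 := by rcases hε with h | h <;> rw [h] <;> simp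
    have hε2 : ε * ε = 1 := by rcases hε with h | h <;> rw [h] <;> ring
    have e7 : chevG2.neg 6 = 5 := by decide
    rw [e7] at h1 h2
    set M : GL (Fin 2) F := gm 1 ε 0 1 (by simp) * gm 1 0 0 ν⁻¹ (by simpa using h0) * gm 1 0 (-(ε * ν)) 1 (by simp) with hM
    have hgd : Gd x M := by
      refine hb.X.dual ?_
      have e3 : Phi M = xg chevG2 F 6 ε * tor ν⁻¹ ν * xg chevG2 F 5 (-(ε * ν)) := by
        rw [hM, map_mul, map_mul, Phi_upper, Phi_lower, Phi_diag one_ne_zero (inv_ne_zero h0)]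
        rw [one_div, inv_inv]
      rw [e3, Phi_XX]
      have e4 : n0 F * (xg chevG2 F 5 1 * tor ν ν⁻¹ * xg chevG2 F 6 (-ν)) * (n0 F)⁻¹ =
          (n0 F * xg chevG2 F 5 1 * (n0 F)⁻¹) * (n0 F * tor ν ν⁻¹ * (n0 F)⁻¹) * (n0 F * xg chevG2 F 6 (-ν) * (n0 F)⁻¹) := by group
      rw [e4, h1, h2, n0_inv (tor_mem h0 (inv_ne_zero h0)), tor_inv h0 (inv_ne_zero h0), mul_one, inv_inv]
      congr 2
      ring
    refine hgd.of_conj (Or.inl ?_) hns ?_ ?_
    · rw [hM, mul10, mul10, mul11]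
      simp [coe_gm, h0, hε0]
    · rw [e1, hM]
      unfold tc
      rw [mul00, mul00, mul01, mul11, mul11, mul10]
      simp only [coe_gm, Matrix.cons_val_zero, Matrix.cons_val_one, Matrix.of_apply,
          Matrix.cons_val', Matrix.cons_val_fin_one]
      field_simp
      linear_combination ν * hε2
    · rw [e2, hM, dt_mul, dt_mul]
      simp [dt, coe_gm]

/-- products for nonscalar matrices -/
theorem Base.prod {x : GLI F} {ν : F} (hb : Base x ν) {N : GL (Fin 2) F} (hN : N.1 1 0 ≠ 0 ∨ N.1 0 1 ≠ 0 ∨ N.1 0 0 ≠ N.1 1 1)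
    {a b c d τ1 δ1 τ2 δ2 : F} (h1 : Adm ν τ1 δ1) (h2 : Adm ν τ2 δ2) (e1 : a + d = τ1) (e2 : a * d - b * c = δ1)
    (e3 : -b + c * dt N + a * tc N = δ1 * τ2) (e4 : dt N = δ1 * δ2) : Pd x N := by
  have h0 := hb.h0
  have hd1 : δ1 ≠ 0 := by rcases h1 with ⟨-, h⟩ | ⟨-, h⟩ <;> rw [h] <;> simp [h0]
  have hd2 : δ2 ≠ 0 := by rcases h2 with ⟨-, h⟩ | ⟨-, h⟩ <;> rw [h] <;> simp [h0]
  obtain ⟨P, hP⟩ := conj_cp N hN (dt_ne N) rfl rfl
  suffices h : Pd x (cp (tc N) (dt N) (dt_ne N)) by rw [hP]; exact h.conj P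
  set t := tc N
  set δ := dt N
  have hd : a * d - b * c ≠ 0 := by rw [e2]; exact hd1
  refine ⟨gm a b c d hd, gm (-b / δ1) ((-d * δ - b * t) / δ1) (a / δ1) ((c * δ + a * t) / δ1) ?_, hb.good ?_, hb.good ?_, ?_⟩
  · have : -b / δ1 * ((c * δ + a * t) / δ1) - (-d * δ - b * t) / δ1 * (a / δ1) = δ2 := by
      field_simp
      rw [e4]
      linear_combination δ1 * δ2 * e2
    rw [this]; exact hd2
  · have e5 : tc (gm a b c d hd) = τ1 := by rw [← e1]; rfl
    have e6 : dt (gm a b c d hd) = δ1 := by rw [← e2]; rfl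
    rw [e5, e6]; exact h1
  · set M := gm (-b / δ1) ((-d * δ - b * t) / δ1) (a / δ1) ((c * δ + a * t) / δ1) _ with hM
    have e5 : tc M = τ2 := by
      have : tc M = -b / δ1 + (c * δ + a * t) / δ1 := rfl
      rw [this]
      field_simp
      linear_combination e3
    have e6 : dt M = δ2 := by
      have : dt M = -b / δ1 * ((c * δ + a * t) / δ1) - (-d * δ - b * t) / δ1 * (a / δ1) := rfl
      rw [this]
      field_simp
      rw [e4]
      linear_combination δ1 * δ2 * e2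
    rw [e5, e6]; exact h2
  · refine gl_ext ?_ ?_ ?_ ?_
    all_goals
      simp only [mul00, mul01, mul10, mul11, coe_gm, cp, Matrix.cons_val_zero, Matrix.cons_val_one, Matrix.of_apply,
        Matrix.cons_val', Matrix.cons_val_fin_one]
    · field_simp; ring
    · field_simp; linear_combination δ * e2
    · field_simp; linear_combination -e2
    · field_simp; linear_combination -t * e2

/-- products for scalar matrices -/
theorem Base.scal {x : GLI F} {ν : F} (hb : Base x ν) {N : GL (Fin 2) F} {s : F} (hs : s = 1 ∨ s = ν ∨ s = ν⁻¹)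
    (e1 : N.1 1 0 = 0) (e2 : N.1 0 1 = 0) (e3 : N.1 0 0 = s) (e4 : N.1 1 1 = s) : Pd x N := by
  have h0 := hb.h0
  have hs0 : s ≠ 0 := by rcases hs with h | h | h <;> rw [h] <;> simp [h0]
  -- `N = M (M⁻¹ s)`
  have key : ∀ a b c d : F, ∀ hd : a * d - b * c ≠ 0, Adm ν (a + d) (a * d - b * c) →
      Adm ν (s * (a + d) / (a * d - b * c)) (s ^ 2 / (a * d - b * c)) → Pd x N := by
    intro a b c d hd h1 h2
    set δ := a * d - b * c with hδ
    refine ⟨gm a b c d hd, gm (s * d / δ) (-(s * b) / δ) (-(s * c) / δ) (s * a / δ) ?_, hb.good h1, hb.good ?_, ?_⟩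
    · have : s * d / δ * (s * a / δ) - -(s * b) / δ * (-(s * c) / δ) = s ^ 2 / δ := by
        field_simp; rw [hδ]; ring
      rw [this]; positivity
    · set M := gm (s * d / δ) (-(s * b) / δ) (-(s * c) / δ) (s * a / δ) _ with hM
      have e5 : tc M = s * (a + d) / δ := by
        have : tc M = s * d / δ + s * a / δ := rfl
        rw [this]; field_simp; ring
      have e6 : dt M = s ^ 2 / δ := by
        have : dt M = s * d / δ * (s * a / δ) - -(s * b) / δ * (-(s * c) / δ) := rfl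
        rw [this]; field_simp; rw [hδ]; ring
      rw [e5, e6]; exact h2
    · refine gl_ext ?_ ?_ ?_ ?_
      · rw [e3, mul00]
        simp only [coe_gm, Matrix.cons_val_zero, Matrix.cons_val_one, Matrix.of_apply,
          Matrix.cons_val', Matrix.cons_val_fin_one]
        field_simp; rw [hδ]; ring
      · rw [e2, mul01]
        simp only [coe_gm, Matrix.cons_val_zero, Matrix.cons_val_one, Matrix.of_apply,
          Matrix.cons_val', Matrix.cons_val_fin_one]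
        field_simp; ring
      · rw [e1, mul10]
        simp only [coe_gm, Matrix.cons_val_zero, Matrix.cons_val_one, Matrix.of_apply,
          Matrix.cons_val', Matrix.cons_val_fin_one]
        field_simp; ring
      · rw [e4, mul11]
        simp only [coe_gm, Matrix.cons_val_zero, Matrix.cons_val_one, Matrix.of_apply,
          Matrix.cons_val', Matrix.cons_val_fin_one]
        field_simp; rw [hδ]; ring
  rcases hs with rfl | rfl | rfl
  · refine key 1 (-ν) 1 0 (by simpa using h0) (Or.inl ⟨by ring, by ring⟩) (Or.inr ⟨?_, ?_⟩)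
    all_goals
      rw [show (1 : F) * 0 - -ν * 1 = ν by ring]
      simp
  · refine key 1 (-s) 1 0 (by simpa using h0) (Or.inl ⟨by ring, by ring⟩) (Or.inl ⟨?_, ?_⟩)
    all_goals
      rw [show (1 : F) * 0 - -s * 1 = s by ring]
      field_simp
      try ring
  · refine key 0 (-ν⁻¹) 1 ν⁻¹ (by simpa using h0) (Or.inr ⟨by ring, by ring⟩) (Or.inr ⟨?_, ?_⟩)
    all_goals
      rw [show (0 : F) * ν⁻¹ - -ν⁻¹ * 1 = ν⁻¹ by ring]
      field_simp
      try ring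

end Cfsg.Agent.Lib.GauCell
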