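import Cfsg.Agent.Lib.GauX

set_option autoImplicit false

/-!
# Fixed points of the basic elements in G2 (helper40)
-/

namespace Cfsg.Agent.Lib.GauCell
open Cfsg.Lie Cfsg.Agent.Lib.ChevX Cfsg.Agent.Lib.ChevGood Cfsg.Agent.Lib.ChevRel Cfsg.Agent.Lib.ChevNPerm
  Cfsg.Agent.Lib.ChevTorus Cfsg.Agent.Lib.ChevBN Cfsg.Agent.Lib.SL2Pres Cfsg.Agent.Lib.ChevSL2 Cfsg.Agent.Lib.ChevClosed
open scoped MatrixGroups Matrix

variable {F : Type*} [Field F]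

/-- no fixed points on the unipotent radical -/
def FU (N : GL (Fin 2) F) : Prop := ∀ k ∈ UU chevG2 F 1, Phi N * k * (Phi N)⁻¹ = k → k = 1
/-- no fixed points on the opposite unipotent radical -/
def FV (N : GL (Fin 2) F) : Prop := ∀ k ∈ VV chevG2 F 1, Phi N * k * (Phi N)⁻¹ = k → k = 1

theorem FU.conj {N : GL (Fin 2) F} (h1 : FU N) (Y : GL (Fin 2) F) : FU (Y * N * Y⁻¹) := by
  intro k hk hk2
  have h3 := (Subgroup.mem_normalizer_iff.mp (inv_mem (Phi_UU Y)) k).mp hk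
  rw [inv_inv] at h3
  have h4 := h1 _ h3 (by
    rw [map_mul, map_mul, map_inv] at hk2
    conv_rhs => rw [← hk2]
    group)
  have h5 := congrArg (fun z => Phi Y * z * (Phi Y)⁻¹) h4
  simpa [mul_assoc] using h5

theorem FU.inv {N : GL (Fin 2) F} (h1 : FU N) : FU N⁻¹ := by
  intro k hk hk2
  refine h1 k hk ?_
  rw [map_inv] at hk2
  conv_lhs => rw [← hk2]
  group

theorem FU.of_conj {N M : GL (Fin 2) F} (h : FU N) (hN : N.1 1 0 ≠ 0 ∨ N.1 0 1 ≠ 0 ∨ N.1 0 0 ≠ N.1 1 1)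
    (hM : M.1 1 0 ≠ 0 ∨ M.1 0 1 ≠ 0 ∨ M.1 0 0 ≠ M.1 1 1) (h1 : tc M = tc N) (h2 : dt M = dt N) : FU M := by
  obtain ⟨P, hP⟩ := conj_cp N hN (dt_ne N) rfl rfl
  obtain ⟨Q, hQ⟩ := conj_cp M hM (dt_ne N) h1 h2
  have h3 : M = (Q * P⁻¹) * N * (Q * P⁻¹)⁻¹ := by
    rw [hQ]
    conv_rhs => rw [hP]
    group
  rw [h3]
  exact h.conj _

theorem FV_of_dual {N M : GL (Fin 2) F} (hM : Phi M = n0 F * Phi N * (n0 F)⁻¹) (h : FU M) : FV N := by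
  intro k hk hk2
  have h1 := n0_VV (F := F) (i := 1) (by decide) hk
  have h2 := h _ h1 (by
    rw [hM]
    conv_rhs => rw [← hk2]
    group)
  have h5 := congrArg (fun z => (n0 F)⁻¹ * z * n0 F) h2
  simpa [mul_assoc] using h5

theorem exists_dual {ν : F} (h0 : ν ≠ 0) : ∃ M : GL (Fin 2) F, Phi M = n0 F * Phi (XX ν h0) * (n0 F)⁻¹ ∧ tc M = ν⁻¹ ∧ dt M = ν⁻¹ ∧
    M.1 1 0 ≠ 0 := by
  obtain ⟨ε, hε, h1, h2⟩ := n0_conj (F := F) (s := 6) (by decide)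
  have hε0 : ε ≠ 0 := by rcases hε with h | h <;> rw [h] <;> simp
  have hε2 : ε * ε = 1 := by rcases hε with h | h <;> rw [h] <;> ring
  have e7 : chevG2.neg 6 = 5 := by decide
  rw [e7] at h1 h2
  set M : GL (Fin 2) F := gm 1 ε 0 1 (by simp) * gm 1 0 0 ν⁻¹ (by simpa using h0) * gm 1 0 (-(ε * ν)) 1 (by simp) with hM
  refine ⟨M, ?_, ?_, ?_, ?_⟩
  · have e3 : Phi M = xg chevG2 F 6 ε * tor ν⁻¹ ν * xg chevG2 F 5 (-(ε * ν)) := by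
      rw [hM, map_mul, map_mul, Phi_upper, Phi_lower, Phi_diag one_ne_zero (inv_ne_zero h0)]
      rw [one_div, inv_inv]
    rw [e3, Phi_XX]
    have e4 : n0 F * (xg chevG2 F 5 1 * tor ν ν⁻¹ * xg chevG2 F 6 (-ν)) * (n0 F)⁻¹ =
        (n0 F * xg chevG2 F 5 1 * (n0 F)⁻¹) * (n0 F * tor ν ν⁻¹ * (n0 F)⁻¹) * (n0 F * xg chevG2 F 6 (-ν) * (n0 F)⁻¹) := by group
    rw [e4, h1, h2, n0_inv (tor_mem h0 (inv_ne_zero h0)), tor_inv h0 (inv_ne_zero h0), mul_one, inv_inv]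
    congr 2
    ring
  · rw [hM]
    unfold tc
    rw [mul00, mul00, mul01, mul11, mul11, mul10]
    simp only [coe_gm, Matrix.cons_val_zero, Matrix.cons_val_one, Matrix.of_apply,
        Matrix.cons_val', Matrix.cons_val_fin_one]
    field_simp
    linear_combination -ν * hε2
  · rw [hM, dt_mul, dt_mul]
    simp [dt, coe_gm]
  · rw [hM, mul10, mul10, mul11]
    simp [coe_gm, h0, hε0]

theorem FV_XX {ν : F} (h0 : ν ≠ 0) (h : FU (XX ν h0)) : FV (XX ν h0) := by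
  obtain ⟨M, h1, h2, h3, h4⟩ := exists_dual h0
  refine FV_of_dual h1 ?_
  have h5 : (XX ν h0)⁻¹ = gm 0 1 (-ν⁻¹) ν⁻¹ (by simpa using h0) := by
    rw [inv_eq_iff_mul_eq_one]
    refine gl_ext ?_ ?_ ?_ ?_
    all_goals
      simp [mul00, mul01, mul10, mul11, XX, coe_gm, h0]
  refine h.inv.of_conj (Or.inl ?_) (Or.inl h4) ?_ ?_
  · rw [h5]; simp [coe_gm, h0]
  · rw [h2, h5]; simp [tc, coe_gm]
  · rw [h3, h5]; simp [dt, coe_gm]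

theorem Base.mk' {ν : F} (h0 : ν ≠ 0) (hirr : ∀ s : F, s * s - s + ν ≠ 0) (h : FU (XX ν h0)) : Base (Phi (XX ν h0)) ν :=
  ⟨h0, hirr, ⟨1, one_mem _, by group⟩, h, FV_XX h0 h⟩

/-- the positive roots other than `β` -/
def A7 : Set (Fin chevG2.nroots) := {r | r ∈ posS chevG2 ∧ 7 ≤ (r : ℕ)}

theorem closed_A7 : Closed F A7 := closed_gt GG (closed_posS GG) 7

theorem UU_eq : UU chevG2 F 1 ≤ ChevClosed.XS chevG2 F A7 := by
  refine ChevU.XS_le fun r hr t => ?_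
  obtain ⟨h1, h2⟩ := hr
  have h3 : r < 12 := h1.1
  have h4 : 6 ≤ r := by
    by_contra hh
    have h5 : ∀ r < 6, ¬ chevG2.IsPosRoot r := by decide
    exact h5 r (by omega) h1
  have h5 : r ≠ 6 := h2
  refine ChevClosed.xg_mem_XS (r := ⟨r, h3⟩) (A := A7) ⟨?_, ?_⟩ t
  · show 12 / 2 ≤ r
    omega
  · show 7 ≤ r
    omega

theorem rvals : ∀ r : Fin chevG2.nroots, 7 ≤ (r : ℕ) → GG.rv r 0 = 1 ∨ (GG.rv r 0 = 2 ∧ (r : ℕ) = 9) ∨ (GG.rv r 0 = 3 ∧ 10 ≤ (r : ℕ)) := by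
  have key : ∀ r < 12, 7 ≤ r → Cfsg.Agent.Lib.ChevTab.rvT ChevDataG2.A r 0 = 1 ∨ (Cfsg.Agent.Lib.ChevTab.rvT ChevDataG2.A r 0 = 2 ∧ r = 9) ∨
      (Cfsg.Agent.Lib.ChevTab.rvT ChevDataG2.A r 0 = 3 ∧ 10 ≤ r) := by decide +kernel
  exact fun r hr => key r r.2 hr

/-- scalar powers -/
theorem Phi_scal {s : F} (hs : s ≠ 0) {N : GL (Fin 2) F} (h1 : N.1 0 0 = s) (h2 : N.1 0 1 = 0) (h3 : N.1 1 0 = 0) (h4 : N.1 1 1 = s) :
    Phi N = tor s 1 := by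
  have h5 : N = gm s 0 0 s (by simpa using hs) := gl_ext h1 h2 h3 h4
  rw [h5, Phi_diag hs hs, div_self hs]

theorem fix_pow {Γ : Type*} [Group Γ] {x k : Γ} (h : x * k * x⁻¹ = k) (n : ℕ) : x ^ n * k * (x ^ n)⁻¹ = k := by
  induction n with
  | zero => simp
  | succ n ih =>
    have : x ^ (n + 1) * k * (x ^ (n + 1))⁻¹ = x ^ n * (x * k * x⁻¹) * (x ^ n)⁻¹ := by rw [pow_succ]; group
    rw [this, h, ih]

/-- fixed points of `Φ(N)` when a power is scalar -/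
theorem fix_step {N : GL (Fin 2) F} {s : F} (hs : s ≠ 0) {n : ℕ} (h1 : (N ^ n).1 0 0 = s) (h2 : (N ^ n).1 0 1 = 0)
    (h3 : (N ^ n).1 1 0 = 0) (h4 : (N ^ n).1 1 1 = s) {k : GLI F} (hk : k ∈ UU chevG2 F 1) (h : Phi N * k * (Phi N)⁻¹ = k) :
    k ∈ ChevClosed.XS chevG2 F {r | r ∈ A7 ∧ s ^ GG.rv r 0 = 1} := by
  have h5 := fix_pow h n
  rw [← map_pow, Phi_scal hs h1 h2 h3 h4] at h5
  have h6 := fix_XS GG (by simp) (closed_A7 (F := F)) (tor_mem hs one_ne_zero) (UU_eq hk) h5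
  refine ChevClosed.XS_mono ?_ h6
  rintro r ⟨hr1, hr2⟩
  refine ⟨hr1, ?_⟩
  rwa [rval_tor hs one_ne_zero, one_zpow, mul_one] at hr2

end Cfsg.Agent.Lib.GauCell
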