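import Cfsg.Agent.Lib.GauY

set_option autoImplicit false

/-!
# The basic elements of G2 over the fields with 3, 4 and 5 elements (helper40)
-/

namespace Cfsg.Agent.Lib.GauCell
open Cfsg.Lie Cfsg.Agent.Lib.ChevX Cfsg.Agent.Lib.ChevGood Cfsg.Agent.Lib.ChevRel Cfsg.Agent.Lib.ChevNPerm
  Cfsg.Agent.Lib.ChevTorus Cfsg.Agent.Lib.ChevBN Cfsg.Agent.Lib.SL2Pres Cfsg.Agent.Lib.ChevSL2 Cfsg.Agent.Lib.ChevClosed
open scoped MatrixGroups Matrix

variable {F : Type*} [Field F]

theorem xconj {r s : ℕ} (hr : r < chevG2.nroots) (hs : s < chevG2.nroots) (h1 : s ≠ r) (h2 : s ≠ chevG2.neg r) (t u : F) :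
    xg chevG2 F r t * xg chevG2 F s u * (xg chevG2 F r t)⁻¹ = xg chevG2 F s u * wg chevG2 F (chevG2.commWord F r s (-t) u) := by
  have h4 := xg_comm GG hr hs h1 h2 (-t) u
  rw [xg_neg GG] at h4
  rw [mul_assoc, h4]; group

theorem xconj_nil {r s : ℕ} (hr : r < chevG2.nroots) (hs : s < chevG2.nroots) (h1 : s ≠ r) (h2 : s ≠ chevG2.neg r)
    (h3 : chevG2.commTerms r s = []) (t u : F) :
    xg chevG2 F r t * xg chevG2 F s u * (xg chevG2 F r t)⁻¹ = xg chevG2 F s u := by
  rw [xconj hr hs h1 h2]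
  unfold ChevalleyDatum.commWord
  rw [h3]
  simp [wg]

theorem tconj {A B : F} (hA : A ≠ 0) (hB : B ≠ 0) (s : Fin chevG2.nroots) (t : F) :
    tor A B * xg chevG2 F s t * (tor A B)⁻¹ = xg chevG2 F s (A ^ GG.rv s 0 * B ^ GG.rv s 1 * t) := by
  rw [conj_x GG (tor_mem hA hB), rval_tor hA hB]

theorem rv9 : GG.rv 9 0 = 2 ∧ GG.rv 9 1 = 1 := by
  have : Cfsg.Agent.Lib.ChevTab.rvT ChevDataG2.A 9 0 = 2 ∧ Cfsg.Agent.Lib.ChevTab.rvT ChevDataG2.A 9 1 = 1 := by decide +kernel
  exact this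
theorem rv10 : GG.rv 10 0 = 3 ∧ GG.rv 10 1 = 1 := by
  have : Cfsg.Agent.Lib.ChevTab.rvT ChevDataG2.A 10 0 = 3 ∧ Cfsg.Agent.Lib.ChevTab.rvT ChevDataG2.A 10 1 = 1 := by decide +kernel
  exact this
theorem rv11 : GG.rv 11 0 = 3 ∧ GG.rv 11 1 = 2 := by
  have : Cfsg.Agent.Lib.ChevTab.rvT ChevDataG2.A 11 0 = 3 ∧ Cfsg.Agent.Lib.ChevTab.rvT ChevDataG2.A 11 1 = 2 := by decide +kernel
  exact this

/-- the element with given components at the two highest roots -/
theorem mem_top {k : GLI F} (hk : k ∈ ChevClosed.XS chevG2 F {r | r ∈ A7 ∧ 10 ≤ (r : ℕ)}) :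
    ∃ a b, k = xg chevG2 F 10 a * xg chevG2 F 11 b := by
  have h1 : k ∈ ChevClosed.XS chevG2 F {r : Fin chevG2.nroots | r ∈ posS chevG2 ∧ 10 ≤ (r : ℕ)} :=
    ChevClosed.XS_mono (by rintro r ⟨⟨h1, -⟩, h2⟩; exact ⟨h1, h2⟩) hk
  obtain ⟨c, hc, rfl⟩ := exists_pr' GG (closed_gt GG (closed_posS GG) 10) h1
  refine ⟨c 10, c 11, ?_⟩
  have h2 : ∀ r < 10, c r = 0 := fun r hr => hc r fun h h3 => by
    have h4 : 10 ≤ r := h3.2
    omega
  have e : ∀ k < 10, pr chevG2 F k c = pr chevG2 F (k + 1) c := by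
    intro k hk
    rw [pr_succ GG (show k < chevG2.nroots from by show k < 12; omega), h2 k hk, xg_zero GG, one_mul]
  rw [show chevG2.nroots / 2 = 6 from rfl,
    e 6 (by norm_num), e 7 (by norm_num), e 8 (by norm_num), e 9 (by norm_num)]
  rw [pr_succ GG (show 9 + 1 < chevG2.nroots by decide), pr_succ GG (show 9 + 1 + 1 < chevG2.nroots by decide),
    pr_out GG (show chevG2.nroots ≤ 9 + 1 + 1 + 1 by decide), mul_one]

theorem top_inj {a b a' b' : F} (h : xg chevG2 F 10 a * xg chevG2 F 11 b = xg chevG2 F 10 a' * xg chevG2 F 11 b') : a = a' ∧ b = b' := by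
  have h1 : ∀ a b : F, xg chevG2 F 10 a * xg chevG2 F 11 b = pr chevG2 F (chevG2.nroots / 2) (fun r => if r = 10 then a else if r = 11 then b else 0) := by
    intro a b
    have e : ∀ k < 10, pr chevG2 F k (fun r => if r = 10 then a else if r = 11 then b else 0) =
        pr chevG2 F (k + 1) (fun r => if r = 10 then a else if r = 11 then b else 0) := by
      intro k hk
      rw [pr_succ GG (show k < chevG2.nroots from by show k < 12; omega), if_neg (by omega), if_neg (by omega), xg_zero GG, one_mul]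
    rw [show chevG2.nroots / 2 = 6 from rfl,
      e 6 (by norm_num), e 7 (by norm_num), e 8 (by norm_num), e 9 (by norm_num)]
    rw [pr_succ GG (show 9 + 1 < chevG2.nroots by decide), pr_succ GG (show 9 + 1 + 1 < chevG2.nroots by decide),
      pr_out GG (show chevG2.nroots ≤ 9 + 1 + 1 + 1 by decide), mul_one]
    rfl
  have h2 : ∀ a b : F, ∀ r, ¬ chevG2.IsPosRoot r → (if r = 10 then a else if r = 11 then b else 0) = 0 := by
    intro a b r hr
    have e1 : r ≠ 10 := by rintro rfl; exact hr (by decide)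
    have e2 : r ≠ 11 := by rintro rfl; exact hr (by decide)
    rw [if_neg e1, if_neg e2]
  rw [h1, h1] at h
  have h3 := pr_inj GG (by simp) (h2 a b) (h2 a' b') h
  have h4 := congrFun h3 10
  have h5 := congrFun h3 11
  rw [if_pos rfl, if_pos rfl] at h4
  rw [if_neg (by norm_num), if_pos rfl, if_neg (by norm_num), if_pos rfl] at h5
  exact ⟨h4, h5⟩

theorem conj3 {Γ : Type*} [Group Γ] {x y z k k' k'' k3 : Γ} (h1 : z * k * z⁻¹ = k') (h2 : y * k' * y⁻¹ = k'') (h3 : x * k'' * x⁻¹ = k3) :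
    (x * y * z) * k * (x * y * z)⁻¹ = k3 := by
  rw [← h3, ← h2, ← h1]; group

theorem conj_mul' {Γ : Type*} [Group Γ] (x k k' : Γ) : (x * k * x⁻¹) * (x * k' * x⁻¹) = x * (k * k') * x⁻¹ := by group

theorem xg_comm_of_nil {r s : ℕ} (hr : r < chevG2.nroots) (hs : s < chevG2.nroots) (hrs : s ≠ r) (hneg : s ≠ chevG2.neg r)
    (h : chevG2.commTerms r s = []) (t u : F) : xg chevG2 F s u * xg chevG2 F r t = xg chevG2 F r t * xg chevG2 F s u := by
  rw [xg_comm GG hr hs hrs hneg]
  unfold ChevalleyDatum.commWord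
  rw [h]
  simp [wg]

/-! ### three elements -/

theorem base3 (h3 : (3 : F) = 0) (hF : ∀ t : F, t = 0 ∨ t = 1 ∨ t = -1) : Base (Phi (XX (-1 : F) (by simp))) (-1) := by
  have h11 : (-1 : F) ≠ 1 := fun h => one_ne_zero (α := F) (by linear_combination h3 + h)
  refine Base.mk' (by simp) (fun s hs => ?_) fun k hk hk2 => ?_
  · rcases hF s with rfl | rfl | rfl
    · simp at hs
    · simp at hs
    · apply one_ne_zero (α := F); linear_combination hs
  · have hA : (-1 : F) ≠ 0 := by simp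
    have h4 := fix_step (n := 4) (s := -1) hA (N := XX (-1 : F) (by simp)) ?_ ?_ ?_ ?_ hk hk2
    · have h5 : k ∈ ChevClosed.XS chevG2 F {(⟨9, by decide⟩ : Fin chevG2.nroots)} := by
        refine ChevClosed.XS_mono ?_ h4
        rintro r ⟨⟨-, hr1⟩, hr2⟩
        rcases rvals r hr1 with h | ⟨h, h'⟩ | ⟨h, h'⟩
        · rw [h, zpow_one] at hr2; exact absurd hr2 h11
        · exact Fin.ext h'
        · rw [h] at hr2
          exfalso; apply h11
          have e : (-1 : F) ^ (3 : ℤ) = -1 := by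
            rw [show (3 : ℤ) = ((3 : ℕ) : ℤ) by norm_num, zpow_natCast]; ring
          rw [e] at hr2; exact hr2
      obtain ⟨t, rfl⟩ : ∃ t, k = xg chevG2 F 9 t := by
        have h6 : k ∈ chevG2.rootSubgroup F 9 := ChevClosed.XS_le (fun r hr t => by
          rw [Set.mem_singleton_iff] at hr
          subst hr
          exact (ChevU.mem_rootSubgroup_iff GG).mpr ⟨t, rfl⟩) h5
        exact (ChevU.mem_rootSubgroup_iff GG).mp h6
      rw [Phi_XX] at hk2
      have e1 := xconj_nil (F := F) (r := 6) (s := 9) (by decide) (by decide) (by decide) (by decide) (by decide +kernel) (-(-1)) t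
      have e2 := xconj_nil (F := F) (r := 5) (s := 9) (by decide) (by decide) (by decide) (by decide) (by decide +kernel) 1
      have e3 := tconj (A := (-1 : F)) (B := (-1 : F)⁻¹) (by simp) (by simp) ⟨9, by decide⟩ t
      simp only [rv9.1, rv9.2] at e3
      have e4 : xg chevG2 F 5 1 * tor (-1 : F) (-1)⁻¹ * xg chevG2 F 6 (-(-1)) * xg chevG2 F 9 t *
          (xg chevG2 F 5 1 * tor (-1 : F) (-1)⁻¹ * xg chevG2 F 6 (-(-1)))⁻¹ = xg chevG2 F 9 ((-1) ^ (2 : ℤ) * ((-1)⁻¹) ^ (1 : ℤ) * t) := by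
        exact conj3 e1 e3 (e2 _)
      rw [e4] at hk2
      have e5 := ChevRel.xg_inj GG (show 9 < chevG2.nroots by decide) hk2
      have e6 : (-1 : F) ^ (2 : ℤ) * ((-1)⁻¹) ^ (1 : ℤ) * t = -t := by
        rw [zpow_one, inv_neg, inv_one]
        rw [show (2 : ℤ) = ((2 : ℕ) : ℤ) by norm_num, zpow_natCast]; ring
      rw [e6] at e5
      have e7 : t = 0 := by linear_combination t * h3 + e5
      rw [e7, xg_zero GG]
    all_goals
      simp only [pow_succ, pow_zero, one_mul, mul00, mul01, mul10, mul11, XX, coe_gm, Matrix.cons_val_zero, Matrix.cons_val_one,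
        Matrix.of_apply, Matrix.cons_val', Matrix.cons_val_fin_one]
      grind

/-! ### five elements -/

theorem base5 (h5 : (5 : F) = 0) (hF : ∀ t : F, t = 0 ∨ t = 1 ∨ t = 2 ∨ t = 3 ∨ t = 4) (h0 : (2 : F) ≠ 0) :
    Base (Phi (XX (2 : F) h0)) 2 := by
  have h1 : (1 : F) ≠ 0 := one_ne_zero
  refine Base.mk' h0 (fun s hs => ?_) fun k hk hk2 => ?_
  · rcases hF s with rfl | rfl | rfl | rfl | rfl
    · exact h0 (by linear_combination hs)
    · exact h0 (by linear_combination hs)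
    · exact h1 (by linear_combination h5 - hs)
    · exact h1 (by linear_combination 2 * hs - 3 * h5)
    · exact h1 (by linear_combination 3 * h5 - hs)
  · have h4 := fix_step (n := 6) (s := 2) h0 (N := XX (2 : F) h0) ?_ ?_ ?_ ?_ hk hk2
    · have h6 : {r | r ∈ A7 ∧ (2 : F) ^ GG.rv r 0 = 1} = ∅ := by
        rw [Set.eq_empty_iff_forall_notMem]
        rintro r ⟨⟨-, hr1⟩, hr2⟩
        rcases rvals r hr1 with h | ⟨h, h'⟩ | ⟨h, h'⟩
        · rw [h, zpow_one] at hr2; exact h1 (by linear_combination hr2)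
        · rw [h, show (2 : ℤ) = ((2 : ℕ) : ℤ) by norm_num, zpow_natCast] at hr2
          exact h1 (by linear_combination 2 * hr2 - h5)
        · rw [h, show (3 : ℤ) = ((3 : ℕ) : ℤ) by norm_num, zpow_natCast] at hr2
          exact h0 (by linear_combination hr2 - h5)
      rw [h6] at h4
      have h7 : k ∈ (⊥ : Subgroup (GLI F)) := ChevClosed.XS_le (fun r hr t => absurd hr (Set.notMem_empty r)) h4
      exact Subgroup.mem_bot.mp h7
    all_goals
      simp only [pow_succ, pow_zero, one_mul, mul00, mul01, mul10, mul11, XX, coe_gm, Matrix.cons_val_zero, Matrix.cons_val_one,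
        Matrix.of_apply, Matrix.cons_val', Matrix.cons_val_fin_one]
      grind

/-! ### four elements -/

theorem base4 (h2 : (2 : F) = 0) {ω : F} (hω : ω ^ 2 + ω + 1 = 0) (hF : ∀ t : F, t = 0 ∨ t = 1 ∨ t = ω ∨ t = ω + 1) (h0 : ω ≠ 0) :
    Base (Phi (XX ω h0)) ω := by
  have h1 : (1 : F) ≠ 0 := one_ne_zero
  have hi : ω⁻¹ = ω ^ 2 := by
    rw [inv_eq_iff_eq_inv, eq_comm, inv_eq_iff_eq_inv, eq_comm]
    apply inv_eq_of_mul_eq_one_left
    linear_combination (ω - 1) * hω
  have hne1 : ω ≠ 1 := fun h => h1 (by rw [h] at hω; linear_combination hω - h2)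
  refine Base.mk' h0 (fun s hs => ?_) fun k hk hk2 => ?_
  · rcases hF s with rfl | rfl | rfl | rfl
    · exact h0 (by linear_combination hs)
    · exact h0 (by linear_combination hs)
    · exact h0 (mul_self_eq_zero.mp (by linear_combination hs))
    · exact h0 (mul_self_eq_zero.mp (by linear_combination hs - ω * h2))
  · have h4 := fix_step (n := 5) (s := ω) h0 (N := XX ω h0) ?_ ?_ ?_ ?_ hk hk2
    · have h5 : k ∈ ChevClosed.XS chevG2 F {r | r ∈ A7 ∧ 10 ≤ (r : ℕ)} := by
        refine ChevClosed.XS_mono ?_ h4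
        rintro r ⟨hr0, hr2⟩
        refine ⟨hr0, ?_⟩
        rcases rvals r hr0.2 with h | ⟨h, h'⟩ | ⟨h, h'⟩
        · rw [h, zpow_one] at hr2; exact absurd hr2 hne1
        · rw [h, show (2 : ℤ) = ((2 : ℕ) : ℤ) by norm_num, zpow_natCast] at hr2
          exact absurd (by linear_combination hω - hr2 - h2 : ω = 0) h0
        · exact h'
      obtain ⟨a, b, rfl⟩ := mem_top h5
      rw [Phi_XX, hi] at hk2
      have n1 : ω ^ 2 ≠ 0 := by positivity
      have e1 := xconj (F := F) (r := 6) (s := 10) (by decide) (by decide) (by decide) (by decide) (-ω) a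
      have e2 := xconj_nil (F := F) (r := 6) (s := 11) (by decide) (by decide) (by decide) (by decide) (by decide +kernel) (-ω) b
      have c1 : chevG2.commTerms 6 10 = [(11, 1, 1, 1)] := by decide +kernel
      have c2 : chevG2.commTerms 5 11 = [(10, 1, 1, 1)] := by decide +kernel
      have e1' : xg chevG2 F 6 (-ω) * xg chevG2 F 10 a * (xg chevG2 F 6 (-ω))⁻¹ = xg chevG2 F 10 a * xg chevG2 F 11 (-ω * a) := by
        rw [e1]
        unfold ChevalleyDatum.commWord
        rw [c1]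
        simp [wg]
      have e5 : xg chevG2 F 6 (-ω) * (xg chevG2 F 10 a * xg chevG2 F 11 b) * (xg chevG2 F 6 (-ω))⁻¹ =
          xg chevG2 F 10 a * xg chevG2 F 11 (-ω * a + b) := by
        rw [← conj_mul', e1', e2, mul_assoc, xg_add GG]
      have e3 := tconj h0 n1 ⟨10, by decide⟩ a
      have e4 := tconj h0 n1 ⟨11, by decide⟩ (-ω * a + b)
      simp only [rv10.1, rv10.2] at e3
      simp only [rv11.1, rv11.2] at e4
      set a2 := ω ^ (3 : ℤ) * (ω ^ 2) ^ (1 : ℤ) * a with ha2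
      set b2 := ω ^ (3 : ℤ) * (ω ^ 2) ^ (2 : ℤ) * (-ω * a + b) with hb2
      have e6 : tor ω (ω ^ 2) * (xg chevG2 F 10 a * xg chevG2 F 11 (-ω * a + b)) * (tor ω (ω ^ 2))⁻¹ = xg chevG2 F 10 a2 * xg chevG2 F 11 b2 := by
        rw [← conj_mul', e3, e4]
      have e7 := xconj (F := F) (r := 5) (s := 11) (by decide) (by decide) (by decide) (by decide) 1 b2
      have e7' : xg chevG2 F 5 1 * xg chevG2 F 11 b2 * (xg chevG2 F 5 1)⁻¹ = xg chevG2 F 11 b2 * xg chevG2 F 10 b2 := by
        rw [e7]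
        unfold ChevalleyDatum.commWord
        rw [c2]
        simp [wg]
      have e8 := xconj_nil (F := F) (r := 5) (s := 10) (by decide) (by decide) (by decide) (by decide) (by decide +kernel) 1 a2
      have e9 := xg_comm_of_nil (F := F) (r := 10) (s := 11) (by decide) (by decide) (by decide) (by decide) (by decide +kernel) b2 b2
      have e10 : xg chevG2 F 5 1 * (xg chevG2 F 10 a2 * xg chevG2 F 11 b2) * (xg chevG2 F 5 1)⁻¹ =
          xg chevG2 F 10 (a2 + b2) * xg chevG2 F 11 b2 := by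
        rw [← conj_mul', e8, e7', e9, ← mul_assoc, xg_add GG]
      have e11 := conj3 e5 e6 e10
      rw [e11] at hk2
      obtain ⟨g1, g2⟩ := top_inj hk2
      have ha2' : a2 = ω ^ 5 * a := by
        rw [ha2, show (3 : ℤ) = ((3 : ℕ) : ℤ) by norm_num, zpow_natCast, zpow_one]; ring
      have hb2' : b2 = ω ^ 7 * (-ω * a + b) := by
        rw [hb2, show (3 : ℤ) = ((3 : ℕ) : ℤ) by norm_num, zpow_natCast, show (2 : ℤ) = ((2 : ℕ) : ℤ) by norm_num, zpow_natCast]; ring
      rw [hb2'] at g2 g1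
      rw [ha2', g2] at g1
      have g3 : b = ω * a := by
        have : ω ^ 5 * a = -(ω + 1) * a := by linear_combination (ω ^ 3 - ω ^ 2 + 1) * a * hω
        linear_combination g1 - this + (ω + 1) * a * h2 - a * ω * h2
      have g4 : b = 0 := by
        rw [← g2, g3]; ring
      have g5 : a = 0 := by
        rw [g4] at g3
        exact (mul_eq_zero.mp g3.symm).resolve_left h0
      rw [g4, g5, xg_zero GG, xg_zero GG, one_mul]
    all_goals
      simp only [pow_succ, pow_zero, one_mul, mul00, mul01, mul10, mul11, XX, coe_gm, Matrix.cons_val_zero, Matrix.cons_val_one,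
        Matrix.of_apply, Matrix.cons_val', Matrix.cons_val_fin_one]
      grind

end Cfsg.Agent.Lib.GauCell
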