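import Mathlib
import Cfsg.Agent.Lib.GolaySteiner
import Cfsg.Agent.Lib.AbstractGolay
import Cfsg.Agent.Lib.S5824Iso

/-!
Uniqueness of the binary Golay code.
-/

set_option autoImplicit false

namespace Cfsg.Agent.Lib.Golay

open Cfsg.Agent.Lib.AbstractGolay

theorem code_unique (C : Submodule (ZMod 2) (Fin 24 → ZMod 2)) (hdim : Module.finrank (ZMod 2) C = 12)
    (h4 : ∀ w ∈ C, 4 ∣ hammingNorm w) (hno4 : ∀ w ∈ C, hammingNorm w ≠ 4) :
    ∃ e : Fin 24 ≃ GolayPt, ∀ w : GolayPt → ZMod 2, w ∈ golayCode ↔ (fun i => w (e i)) ∈ C := by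
  classical
  have hmin : ∀ w ∈ C, w ≠ 0 → 8 ≤ hammingNorm w := by
    intro w hw h0
    have h1 := h4 w hw
    have h2 := hno4 w hw
    have h3 : hammingNorm w ≠ 0 := by rwa [Ne, hammingNorm_eq_zero]
    omega
  have hS := steiner C hdim hmin
  obtain ⟨e, he⟩ := Cfsg.Agent.Lib.S5824.iso (by simp) (by rfl) hS octads_steiner
  refine ⟨e, ?_⟩
  let φ : (GolayPt → ZMod 2) ≃ₗ[ZMod 2] (Fin 24 → ZMod 2) := LinearEquiv.funCongrLeft (ZMod 2) (ZMod 2) e
  have hφ : ∀ w, φ w = fun i => w (e i) := fun w => rfl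
  have hle : C ≤ golayCode.map (φ : (GolayPt → ZMod 2) →ₗ[ZMod 2] (Fin 24 → ZMod 2)) := by
    rw [← span_octads C hdim hmin, Submodule.span_le]
    rintro w ⟨hw, hw8⟩
    have h1 : supp w ∈ Cfsg.wordsOfWeight (C : Set V) 8 := ⟨⟨w, hw, rfl⟩, hw8⟩
    have h2 : (supp w).image e ∈ octads := by
      rw [← he]; exact ⟨_, h1, rfl⟩
    obtain ⟨⟨v, hv, hvs⟩, -⟩ := h2
    refine ⟨v, hv, ?_⟩
    show φ v = w
    rw [hφ]
    funext i
    have h3 : e i ∈ support₂ v ↔ i ∈ supp w := by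
      rw [hvs, Finset.mem_image]
      constructor
      · rintro ⟨j, hj, hji⟩
        rwa [← e.injective hji]
      · intro hi
        exact ⟨i, hi, rfl⟩
    rw [mem_supp] at h3
    have h4 : e i ∈ support₂ v ↔ v (e i) ≠ 0 := by simp [support₂]
    rw [h4] at h3
    rcases zmod2_cases (v (e i)) with h | h <;> rcases zmod2_cases (w i) with h' | h' <;>
      simp [h, h'] at h3 ⊢
  have heq : C = golayCode.map (φ : (GolayPt → ZMod 2) →ₗ[ZMod 2] (Fin 24 → ZMod 2)) := by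
    apply Submodule.eq_of_le_of_finrank_eq hle
    rw [hdim, LinearEquiv.finrank_map_eq φ golayCode, finrank_golayCode]
  intro w
  rw [← hφ, heq]
  constructor
  · intro hw
    exact Submodule.mem_map_of_mem hw
  · rintro ⟨v, hv, hvw⟩
    have : v = w := φ.injective hvw
    rwa [← this]

end Cfsg.Agent.Lib.Golay
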