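import Mathlib
import Cfsg.Prelude.Def_LocalEven
import Cfsg.Agent.Lib.Involve
import Cfsg.Agent.Lib.QdFree

set_option autoImplicit false

/-!
# `S₄`-free groups (for the Goldschmidt groups, helper61)
-/

namespace Cfsg.Agent.Lib.GoldA95

open Subgroup Cfsg
open Cfsg.Agent.Lib.QdFree (exists_lift_pGroup)

set_option maxRecDepth 20000 in
/-- a dihedral subgroup of `S₄` -/
theorem s4_two_group : ∃ (P : Subgroup (Equiv.Perm (Fin 4))) (a b : Equiv.Perm (Fin 4)),
    IsPGroup 2 P ∧ a ∈ P ∧ b ∈ P ∧ a * b ≠ b * a := by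
  refine ⟨centralizer {Equiv.swap 0 1 * Equiv.swap 2 3}, Equiv.swap 0 1, Equiv.swap 0 2 * Equiv.swap 1 3,
    ?_, ?_, ?_, by decide⟩
  · rintro ⟨g, hg⟩
    refine ⟨2, Subtype.ext ?_⟩
    rw [mem_centralizer_singleton_iff] at hg
    have key : ∀ g : Equiv.Perm (Fin 4), g * (Equiv.swap 0 1 * Equiv.swap 2 3) = (Equiv.swap 0 1 * Equiv.swap 2 3) * g →
      g ^ (2 ^ 2) = 1 := by decide
    exact key g hg
  · rw [mem_centralizer_singleton_iff]; decide
  · rw [mem_centralizer_singleton_iff]; decide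

/-- Groups with abelian Sylow `2`-subgroups do not involve `S₄`. -/
theorem s4free_of_abelian {G : Type*} [Group G] [Finite G] (hab : ∀ T : Sylow 2 G, IsMulCommutative T) :
    ¬ Involves (Equiv.Perm (Fin 4)) G := by
  intro h
  obtain ⟨K, f, hf⟩ := Involve.exists_hom h
  obtain ⟨P, a, b, hP, ha, hb, hab'⟩ := s4_two_group
  haveI : Fact (Nat.Prime 2) := ⟨Nat.prime_two⟩
  obtain ⟨Q, hQ, hQP⟩ := exists_lift_pGroup f hf P hP
  rw [← hQP] at ha hb
  obtain ⟨x, hx, rfl⟩ := ha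
  obtain ⟨y, hy, rfl⟩ := hb
  apply hab'
  rw [← map_mul, ← map_mul]
  congr 1
  apply Subtype.ext
  obtain ⟨T, hT⟩ := (hQ.map K.subtype).exists_le_sylow
  have h1 := (hab T).is_comm.comm (⟨(x : G), hT (mem_map_of_mem _ hx)⟩ : (T : Subgroup G))
    ⟨(y : G), hT (mem_map_of_mem _ hy)⟩
  have h2 : (x : G) * (y : G) = (y : G) * (x : G) := congrArg Subtype.val h1
  exact h2

/-- the normal four-group of `S₄` -/
def V4 : Subgroup (Equiv.Perm (Fin 4)) where
  carrier := {g | g = 1 ∨ g = Equiv.swap 0 1 * Equiv.swap 2 3 ∨ g = Equiv.swap 0 2 * Equiv.swap 1 3 ∨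
    g = Equiv.swap 0 3 * Equiv.swap 1 2}
  mul_mem' := by
    rintro a b (rfl | rfl | rfl | rfl) (rfl | rfl | rfl | rfl) <;> decide
  one_mem' := Or.inl rfl
  inv_mem' := by
    rintro a (rfl | rfl | rfl | rfl) <;> decide

theorem mem_V4 {g : Equiv.Perm (Fin 4)} : g ∈ V4 ↔ (g = 1 ∨ g = Equiv.swap 0 1 * Equiv.swap 2 3 ∨
    g = Equiv.swap 0 2 * Equiv.swap 1 3 ∨ g = Equiv.swap 0 3 * Equiv.swap 1 2) := Iff.rfl

theorem V4_normal : V4.Normal := by
  constructor
  intro n hn g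
  rw [mem_V4] at *
  revert g
  rcases hn with rfl | rfl | rfl | rfl <;> decide

theorem V4_pgroup : IsPGroup 2 V4 := by
  rintro ⟨g, hg⟩
  refine ⟨1, Subtype.ext ?_⟩
  rcases hg with rfl | rfl | rfl | rfl <;> decide

/-- Groups with TI Sylow `2`-subgroups do not involve `S₄`. -/
theorem s4free_of_TI {G : Type*} [Group G] [Finite G]
    (hTI : ∀ P Q : Sylow 2 G, (P : Subgroup G) ⊓ (Q : Subgroup G) ≠ ⊥ → P = Q) :
    ¬ Involves (Equiv.Perm (Fin 4)) G := by
  intro h
  obtain ⟨K, f, hf⟩ := Involve.exists_hom h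
  haveI : Fact (Nat.Prime 2) := ⟨Nat.prime_two⟩
  haveI := V4_normal
  set N : Subgroup K := V4.comap f with hN
  haveI hNn : N.Normal := inferInstance
  obtain ⟨Q0, hQ0, hQ0V⟩ := exists_lift_pGroup f hf V4 V4_pgroup
  have hQ0N : Q0 ≤ N := fun x hx => by
    rw [hN, mem_comap, ← hQ0V]; exact mem_map_of_mem f hx
  have hQ0p : IsPGroup 2 (Q0.subgroupOf N) := hQ0.comap_of_injective _ N.subtype_injective
  obtain ⟨P, hP⟩ := hQ0p.exists_le_sylow
  have hfr := Sylow.normalizer_sup_eq_top P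
  set T : Subgroup K := (P : Subgroup N).map N.subtype with hT
  have hQT : Q0 ≤ T := by
    intro x hx
    exact ⟨⟨x, hQ0N hx⟩, hP (mem_subgroupOf.2 hx), rfl⟩
  have hTp : IsPGroup 2 T := P.isPGroup'.map _
  have hTf : V4 ≤ T.map f := by
    rw [← hQ0V]; exact map_mono hQT
  have htop : (normalizer (T : Set K)).map f = ⊤ := by
    have h1 := congrArg (Subgroup.map f) hfr
    rw [Subgroup.map_sup] at h1
    have h2 : N.map f ≤ (normalizer (T : Set K)).map f := by
      refine le_trans ?_ (hTf.trans (map_mono le_normalizer))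
      rintro _ ⟨x, hx, rfl⟩
      exact hx
    rw [sup_eq_left.2 h2] at h1
    rw [h1, eq_top_iff]
    intro y _
    obtain ⟨x, rfl⟩ := hf y
    exact mem_map_of_mem f (mem_top x)
  have hTne : T.map K.subtype ≠ ⊥ := by
    intro h1
    have h2 : T = ⊥ := (map_eq_bot_iff_of_injective _ K.subtype_injective).1 h1
    have h3 : Equiv.swap 0 1 * Equiv.swap 2 3 ∈ T.map f := hTf (mem_V4.2 (Or.inr (Or.inl rfl)))
    rw [h2, Subgroup.map_bot, mem_bot] at h3
    exact absurd h3 (by decide)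
  have hkey : ∀ R : Subgroup K, IsPGroup 2 R → R ≤ normalizer (T : Set K) →
      ∃ S : Sylow 2 G, (T ⊔ R).map K.subtype ≤ S := by
    intro R hR hRT
    have h1 : IsPGroup 2 (T ⊔ R : Subgroup K) := by
      rw [sup_comm]
      exact IsPGroup.to_sup_of_normal_right' hR hTp hRT
    exact (h1.map K.subtype).exists_le_sylow
  obtain ⟨S, hS⟩ := hkey ⊥ IsPGroup.of_bot bot_le
  have hTS : T.map K.subtype ≤ S := (map_mono le_sup_left).trans hS
  have hR : ∀ R : Subgroup K, IsPGroup 2 R → R ≤ normalizer (T : Set K) → R.map K.subtype ≤ S := by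
    intro R hR hRT
    obtain ⟨S', hS'⟩ := hkey R hR hRT
    have h1 : S' = S := by
      apply hTI
      intro h2
      apply hTne
      rw [eq_bot_iff, ← h2]
      exact le_inf ((map_mono le_sup_left).trans hS') hTS
    rw [h1] at hS'
    exact (map_mono le_sup_right).trans hS'
  -- lifting a `2`-element into `S`
  have hlift : ∀ s : Equiv.Perm (Fin 4), s ^ 2 = 1 → ∃ x : K, (x : G) ∈ S ∧ f x = s := by
    intro s hs
    let g : normalizer (T : Set K) →* Equiv.Perm (Fin 4) := f.comp (normalizer (T : Set K)).subtype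
    have hg : Function.Surjective g := by
      intro y
      have h1 : y ∈ (normalizer (T : Set K)).map f := by rw [htop]; exact mem_top y
      obtain ⟨x, hx, rfl⟩ := h1
      exact ⟨⟨x, hx⟩, rfl⟩
    have hz : IsPGroup 2 (zpowers s) := by
      rintro ⟨_, k, rfl⟩
      refine ⟨1, Subtype.ext ?_⟩
      show (s ^ k) ^ (2 ^ 1) = 1
      rw [← zpow_natCast, ← zpow_mul, mul_comm, zpow_mul]
      rw [show s ^ (((2 ^ 1 : ℕ)) : ℤ) = s ^ 2 by norm_cast, hs, one_zpow]
    obtain ⟨R, hRp, hRm⟩ := exists_lift_pGroup g hg (zpowers s) hz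
    have h1 : s ∈ R.map g := by rw [hRm]; exact mem_zpowers s
    obtain ⟨x, hx, rfl⟩ := h1
    refine ⟨x, ?_, rfl⟩
    have h2 := hR (R.map (normalizer (T : Set K)).subtype) (hRp.map _) (by
      rintro _ ⟨y, -, rfl⟩; exact y.2)
    exact h2 (mem_map_of_mem K.subtype (mem_map_of_mem (normalizer (T : Set K)).subtype hx))
  obtain ⟨x, hx, hfx⟩ := hlift (Equiv.swap 0 1) (by decide)
  obtain ⟨y, hy, hfy⟩ := hlift (Equiv.swap 1 2) (by decide)
  obtain ⟨k, hk⟩ := S.isPGroup' ⟨(x * y : K), by push_cast; exact mul_mem hx hy⟩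
  have hk' : ((x * y : K) : G) ^ (2 ^ k) = 1 := congrArg Subtype.val hk
  have h3 : (x * y : K) ^ (2 ^ k) = 1 := Subtype.ext hk'
  have h4 := congrArg f h3
  rw [map_pow, map_mul, hfx, hfy, map_one] at h4
  have h5 : orderOf (Equiv.swap (0 : Fin 4) 1 * Equiv.swap 1 2) = 3 := orderOf_eq_prime (by decide) (by decide)
  have h6 := orderOf_dvd_of_pow_eq_one h4
  rw [h5] at h6
  have h7 := (Nat.Prime.dvd_of_dvd_pow Nat.prime_three h6)
  omega

end Cfsg.Agent.Lib.GoldA95
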