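import Mathlib
import Cfsg.Agent.Lib.GoldA95a
import Cfsg.Agent.Lib.S3Sec
import Cfsg.Agent.Lib.ClSL2Syl
import Cfsg.Agent.S2758

set_option autoImplicit false

/-!
# `S₃` and `S₄` in `PSL₂(q)` (for the Goldschmidt groups, helper61)
-/

namespace Cfsg.Agent.Lib.GoldA95

open Subgroup Cfsg Matrix
open scoped MatrixGroups

variable {F : Type*} [Field F]

theorem mem_cent {A : SL(2, F)} : A ∈ center SL(2, F) ↔ A = 1 ∨ A = -1 := by
  rw [Matrix.SpecialLinearGroup.mem_center_iff]
  constructor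
  · rintro ⟨r, hr, h⟩
    rw [Fintype.card_fin] at hr
    have h1 : (r - 1) * (r + 1) = 0 := by linear_combination hr
    rcases mul_eq_zero.1 h1 with h2 | h2
    · left
      apply Subtype.ext
      rw [← h, sub_eq_zero.1 h2]
      simp
    · right
      apply Subtype.ext
      rw [← h, eq_neg_of_add_eq_zero_left h2]
      ext i j
      fin_cases i <;> fin_cases j <;> simp
  · rintro (rfl | rfl)
    · exact ⟨1, by simp, by simp⟩
    · refine ⟨-1, by simp, ?_⟩
      ext i j
      fin_cases i <;> fin_cases j <;> simp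

theorem mk_eq_one {A : SL(2, F)} :
    (QuotientGroup.mk A : Matrix.ProjectiveSpecialLinearGroup (Fin 2) F) = 1 ↔ A = 1 ∨ A = -1 := by
  rw [← mem_cent]
  exact QuotientGroup.eq_one_iff A

/-- an `S₃` from two matrices -/
theorem psl_s3 (A B : SL(2, F)) (hA : A ^ 3 = 1) (hA1 : A ∉ center SL(2, F)) (hB : B * B = 1 ∨ B * B = -1)
    (hBA : B * A * B * A = 1 ∨ B * A * B * A = -1) :
    Involves (Equiv.Perm (Fin 3)) (Matrix.ProjectiveSpecialLinearGroup (Fin 2) F) := by
  refine S3Sec.involves_perm_three (QuotientGroup.mk A : Matrix.ProjectiveSpecialLinearGroup (Fin 2) F)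
    (QuotientGroup.mk B) ?_ ?_ ?_ ?_
  · rw [← QuotientGroup.mk_pow, hA]; rfl
  · intro h
    exact hA1 (mem_cent.2 (mk_eq_one.1 h))
  · rw [← QuotientGroup.mk_mul]
    exact mk_eq_one.2 hB
  · rw [eq_inv_iff_mul_eq_one, ← QuotientGroup.mk_mul, ← QuotientGroup.mk_mul, ← QuotientGroup.mk_mul]
    exact mk_eq_one.2 hBA

theorem psl_s3_even [CharP F 2] : Involves (Equiv.Perm (Fin 3)) (Matrix.ProjectiveSpecialLinearGroup (Fin 2) F) := by
  have h2 : (1 : F) + 1 = 0 := CharTwo.add_self_eq_zero 1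
  have h3 : (-1 : F) = 1 := by rw [CharTwo.neg_eq]
  let A : SL(2, F) := ⟨!![0, 1; 1, 1], by simp [Matrix.det_fin_two_of, h3]⟩
  let B : SL(2, F) := ⟨!![0, 1; 1, 0], by simp [Matrix.det_fin_two_of, h3]⟩
  refine psl_s3 A B ?_ ?_ (Or.inl ?_) (Or.inl ?_)
  · apply Subtype.ext
    show (!![0, 1; 1, 1] : Matrix (Fin 2) (Fin 2) F) ^ 3 = 1
    rw [pow_succ, pow_two]
    ext i j
    fin_cases i <;> fin_cases j <;> simp [h2]
  · intro h
    rcases mem_cent.1 h with h | h
    · have := congrArg (fun M : SL(2, F) => M.1 0 1) h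
      simp [A] at this
    · have := congrArg (fun M : SL(2, F) => M.1 0 1) h
      simp [A] at this
  · apply Subtype.ext
    show (!![0, 1; 1, 0] : Matrix (Fin 2) (Fin 2) F) * !![0, 1; 1, 0] = 1
    ext i j
    fin_cases i <;> fin_cases j <;> simp
  · apply Subtype.ext
    show (!![0, 1; 1, 0] : Matrix (Fin 2) (Fin 2) F) * !![0, 1; 1, 1] * !![0, 1; 1, 0] * !![0, 1; 1, 1] = 1
    ext i j
    fin_cases i <;> fin_cases j <;> simp [h2]

/-- `a² + ab + b² = -1` is solvable away from characteristics `2`, `3` -/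
theorem exists_quad [Fintype F] (hodd : Odd (Fintype.card F)) (h3 : (3 : F) ≠ 0) :
    ∃ a b : F, a ^ 2 + a * b + b ^ 2 = -1 := by
  classical
  have h2 : (2 : F) ≠ 0 := ClUtil.two_ne_zero_of_odd_card hodd
  have h4 : (3 / 4 : F) ≠ 0 := div_ne_zero h3 (by
    rw [show (4 : F) = 2 * 2 by norm_num]; exact mul_ne_zero h2 h2)
  obtain ⟨x, y, hxy⟩ := FiniteField.exists_root_sum_quadratic (R := F)
    (f := Polynomial.X ^ 2 + Polynomial.C 1) (g := Polynomial.C (3 / 4) * Polynomial.X ^ 2)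
    (Polynomial.degree_X_pow_add_C (by decide) _) (by
      rw [Polynomial.degree_C_mul_X_pow _ h4]; rfl) (Nat.odd_iff.1 hodd)
  simp only [Polynomial.eval_add, Polynomial.eval_pow, Polynomial.eval_X, Polynomial.eval_C, Polynomial.eval_mul] at hxy
  refine ⟨x - y / 2, y, ?_⟩
  have h5 : (4 : F) ≠ 0 := by
    rw [show (4 : F) = 2 * 2 by norm_num]; exact mul_ne_zero h2 h2
  have h6 : (x - y / 2) ^ 2 + (x - y / 2) * y + y ^ 2 = x ^ 2 + 3 / 4 * y ^ 2 := by
    field_simp
    ring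
  rw [h6]
  linear_combination hxy

theorem psl_s3_odd [Fintype F] (hodd : Odd (Fintype.card F)) (h3 : (3 : F) ≠ 0) :
    Involves (Equiv.Perm (Fin 3)) (Matrix.ProjectiveSpecialLinearGroup (Fin 2) F) := by
  have h2 : (2 : F) ≠ 0 := ClUtil.two_ne_zero_of_odd_card hodd
  obtain ⟨a, b, hab⟩ := exists_quad hodd h3
  let A : SL(2, F) := ⟨!![0, -1; 1, -1], by simp [Matrix.det_fin_two_of]⟩
  let B : SL(2, F) := ⟨!![a, b; a + b, -a], by
    rw [Matrix.det_fin_two_of]; linear_combination -hab⟩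
  refine psl_s3 A B ?_ ?_ (Or.inr ?_) (Or.inr ?_)
  · apply Subtype.ext
    show (!![0, -1; 1, -1] : Matrix (Fin 2) (Fin 2) F) ^ 3 = 1
    rw [pow_succ, pow_two]
    ext i j
    fin_cases i <;> fin_cases j <;> simp
  · intro h
    rcases mem_cent.1 h with h | h
    · have := congrArg (fun M : SL(2, F) => M.1 1 0) h
      simp [A] at this
    · have := congrArg (fun M : SL(2, F) => M.1 1 0) h
      simp [A] at this
  · apply Subtype.ext
    show (!![a, b; a + b, -a] : Matrix (Fin 2) (Fin 2) F) * !![a, b; a + b, -a] = -1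
    ext i j
    fin_cases i <;> fin_cases j <;> simp
    · linear_combination hab
    · ring
    · ring
    · linear_combination hab
  · apply Subtype.ext
    show (!![a, b; a + b, -a] : Matrix (Fin 2) (Fin 2) F) * !![0, -1; 1, -1] * !![a, b; a + b, -a] *
      !![0, -1; 1, -1] = -1
    ext i j
    fin_cases i <;> fin_cases j <;> simp
    · linear_combination hab
    · ring
    · ring
    · linear_combination hab

/-- Elements of `3`-power order of `PSL₂(q)`, `q = 3^odd`, are not inverted. -/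
theorem matrix_core [Fintype F] (h4 : Fintype.card F % 4 = 3) {x y z w a b c : F} (hd : x * w - y * z = 1)
    (hn : a * a + b * c = 0) (hne : b ≠ 0 ∨ c ≠ 0)
    (e1 : 2 * a * x + y * c + b * z = 0) (e2 : b * (x + w) = 0) (e3 : c * (x + w) = 0) : False := by
  have hsq : ¬ IsSquare (-1 : F) := by
    rw [FiniteField.isSquare_neg_one_iff]; omega
  apply hsq
  have hxw : w = -x := by
    rcases hne with h | h
    · linear_combination (mul_eq_zero.1 e2).resolve_left h
    · linear_combination (mul_eq_zero.1 e3).resolve_left h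
  subst hxw
  rcases hne with h | h
  · refine ⟨(b * x - a * y) / b, ?_⟩
    field_simp
    linear_combination b ^ 2 * hd + b * y * e1 - y ^ 2 * hn
  · refine ⟨(c * x - a * z) / c, ?_⟩
    field_simp
    linear_combination c ^ 2 * hd + c * z * e1 - z ^ 2 * hn

theorem card_mod {n : ℕ} : 3 ^ (2 * n + 1) % 4 = 3 := by
  rw [pow_succ, pow_mul, Nat.mul_mod, Nat.pow_mod]
  norm_num

theorem char3 [Fintype F] {n : ℕ} (hF : Fintype.card F = 3 ^ (2 * n + 1)) : CharP F 3 := by
  have : Fact (Nat.Prime 3) := ⟨Nat.prime_three⟩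
  obtain ⟨p, hp⟩ := CharP.exists F
  have hpp : p.Prime := (CharP.char_is_prime_or_zero F p).resolve_right (CharP.char_ne_zero_of_finite F p)
  have h1 : p ∣ Fintype.card F := by
    rw [← CharP.cast_eq_zero_iff F p]
    exact FiniteField.cast_card_eq_zero F
  rw [hF] at h1
  have h2 : p = 3 := (Nat.prime_dvd_prime_iff_eq hpp Nat.prime_three).1 (hpp.dvd_of_dvd_pow h1)
  exact h2 ▸ hp

/-- a `3`-element of `SL₂` in characteristic `3` -/
theorem unip [CharP F 3] {Y : SL(2, F)} {k : ℕ} (hY : Y ^ (3 ^ k) = 1) :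
    Y.1 0 0 + Y.1 1 1 = 2 := by
  have : Fact (Nat.Prime 3) := ⟨Nat.prime_three⟩
  have h1 : (Y.1 - 1) ^ (3 ^ k) = 0 := by
    have h2 : Y.1 ^ (3 ^ k) = 1 := congrArg Subtype.val hY
    rw [sub_pow_expChar_pow_of_commute 3 k (Commute.one_right Y.1), h2, one_pow, sub_self]
  have h3 : IsNilpotent (Y.1 - 1) := ⟨_, h1⟩
  have h4 := (Matrix.isNilpotent_trace_of_isNilpotent h3).eq_zero
  rw [Matrix.trace_fin_two] at h4
  simp at h4
  linear_combination h4

theorem psl3_not_inverted [Fintype F] {n : ℕ} (hF : Fintype.card F = 3 ^ (2 * n + 1))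
    (x y : Matrix.ProjectiveSpecialLinearGroup (Fin 2) F) (hy : ∃ k : ℕ, orderOf y = 3 ^ k) (hy1 : y ≠ 1)
    (hxy : x * y * x⁻¹ = y⁻¹) : False := by
  have := char3 hF
  have hinv : ∀ M : SL(2, F), (M⁻¹).1 = Matrix.adjugate M.1 := fun M => Matrix.SpecialLinearGroup.coe_inv M
  have h3 : (3 : F) = 0 := by exact_mod_cast CharP.cast_eq_zero F 3
  have h2 : (2 : F) ≠ 0 := by
    intro h
    have : (1 : F) = 0 := by linear_combination h3 - h
    exact one_ne_zero this
  obtain ⟨k, hk⟩ := hy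
  obtain ⟨X, rfl⟩ := QuotientGroup.mk_surjective x
  -- a good representative of `y`
  obtain ⟨Y, rfl, hY⟩ : ∃ Y : SL(2, F), (QuotientGroup.mk Y : Matrix.ProjectiveSpecialLinearGroup (Fin 2) F) = y ∧
      Y ^ (3 ^ k) = 1 := by
    obtain ⟨Y, rfl⟩ := QuotientGroup.mk_surjective y
    have h4 : (QuotientGroup.mk (Y ^ (3 ^ k)) : Matrix.ProjectiveSpecialLinearGroup (Fin 2) F) = 1 := by
      rw [QuotientGroup.mk_pow, ← hk, pow_orderOf_eq_one]
    rcases mk_eq_one.1 h4 with h5 | h5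
    · exact ⟨Y, rfl, h5⟩
    · refine ⟨-Y, ?_, ?_⟩
      · rw [QuotientGroup.eq, mem_cent]
        right
        rw [inv_mul_eq_iff_eq_mul]
        simp
      · rw [Odd.neg_pow (Odd.pow (by decide)), h5, neg_neg]
  have htr := unip hY
  have hdY := Y.2
  have hdX := X.2
  rw [Matrix.det_fin_two] at hdY hdX
  have h4 : X * Y * X⁻¹ * Y ∈ center SL(2, F) := by
    rw [mem_cent, ← mk_eq_one, QuotientGroup.mk_mul, QuotientGroup.mk_mul, QuotientGroup.mk_mul,
      QuotientGroup.mk_inv, hxy, inv_mul_cancel]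
  have hYi : (Y⁻¹).1 0 0 + (Y⁻¹).1 1 1 = 2 := by
    rw [hinv, Matrix.adjugate_fin_two]
    simp
    linear_combination htr
  rcases mem_cent.1 h4 with h5 | h5
  · -- `X Y = Y⁻¹ X`
    have h6 : X * Y = Y⁻¹ * X := by
      have : X * Y * X⁻¹ = Y⁻¹ := eq_inv_of_mul_eq_one_left h5
      rw [← this, inv_mul_cancel_right]
    have h7 := congrArg Subtype.val h6
    have h8 : X.1 * Y.1 = (Matrix.adjugate Y.1) * X.1 := by
      rw [← hinv]; exact h7
    have e00 := congrFun (congrFun h8 0) 0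
    have e01 := congrFun (congrFun h8 0) 1
    have e10 := congrFun (congrFun h8 1) 0
    have e11 := congrFun (congrFun h8 1) 1
    rw [Matrix.adjugate_fin_two] at e00 e01 e10 e11
    simp [Matrix.mul_apply, Fin.sum_univ_two] at e00 e01 e10 e11
    have hYne : ¬ (Y.1 0 1 = 0 ∧ Y.1 1 0 = 0) := by
      rintro ⟨h9, h10⟩
      apply hy1
      rw [mk_eq_one]
      left
      have h11 : (Y.1 0 0 - 1) * (Y.1 0 0 - 1) = 0 := by
        rw [h9] at hdY
        linear_combination (Y.1 0 0) * htr - hdY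
      have h12 : Y.1 0 0 = 1 := by linear_combination mul_self_eq_zero.1 h11
      have h13 : Y.1 1 1 = 1 := by linear_combination htr - h12
      apply Subtype.ext
      ext i j
      fin_cases i <;> fin_cases j <;> simp [h9, h10, h12, h13]
    refine matrix_core (F := F) (by rw [hF]; exact card_mod) (x := X.1 0 0) (y := X.1 0 1) (z := X.1 1 0) (w := X.1 1 1)
      (a := Y.1 0 0 - 1) (b := Y.1 0 1) (c := Y.1 1 0) (by linear_combination hdX) ?_ ?_ ?_ ?_ ?_
    · linear_combination (Y.1 0 0) * htr - hdY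
    · by_contra hcon
      push Not at hcon
      exact hYne hcon
    · linear_combination e00 + (X.1 0 0) * htr
    · linear_combination e01
    · linear_combination e10
  · exfalso
    have h6 : X * Y * X⁻¹ = -Y⁻¹ := by
      rw [← mul_inv_eq_iff_eq_mul.2 h5.symm]
      simp
    have h7 := congrArg (fun M : SL(2, F) => M.1.trace) h6
    have h8 : (X * Y * X⁻¹).1.trace = Y.1.trace := by
      show (X.1 * Y.1 * (X⁻¹).1).trace = _
      rw [Matrix.trace_mul_comm, ← mul_assoc]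
      have : (X⁻¹).1 * X.1 = 1 := congrArg Subtype.val (inv_mul_cancel X)
      rw [this, one_mul]
    have h9 : (-Y⁻¹ : SL(2, F)).1.trace = -2 := by
      show (-(Y⁻¹).1).trace = -2
      rw [Matrix.trace_neg, Matrix.trace_fin_two, hYi]
    rw [h8, h9, Matrix.trace_fin_two, htr] at h7
    apply h2
    have h10 : (2 : F) * 2 = 0 := by linear_combination h7
    exact mul_self_eq_zero.1 h10

/-- `S₃` is not involved in a group in which no `2`-element inverts a `3`-element -/
theorem s3free_of {G : Type*} [Group G] [Finite G]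
    (h : ∀ x y : G, (∃ k : ℕ, orderOf y = 3 ^ k) → y ≠ 1 → x * y * x⁻¹ = y⁻¹ → False) :
    ¬ Involves (Equiv.Perm (Fin 3)) G := by
  have : Fact (Nat.Prime 3) := ⟨Nat.prime_three⟩
  intro h3
  obtain ⟨e⟩ := S3Sec.perm_three
  obtain ⟨x, y, -, hy, hy1, hxy⟩ := (S2758.result (G := G) (p := 3) (by decide)).2.1
    (Involve.involves_of_equiv e.symm h3)
  exact h x y hy hy1 hxy

theorem psl_s3free {G : Type*} [Group G] [Finite G] {F : Type*} [Field F] [Fintype F] {n : ℕ}
    (hF : Fintype.card F = 3 ^ (2 * n + 1)) (e : G ≃* Matrix.ProjectiveSpecialLinearGroup (Fin 2) F) :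
    ¬ Involves (Equiv.Perm (Fin 3)) G := by
  apply s3free_of
  rintro x y ⟨k, hk⟩ hy1 hxy
  refine psl3_not_inverted hF (e x) (e y) ⟨k, by rw [MulEquiv.orderOf_eq]; exact hk⟩ ?_ ?_
  · intro h
    exact hy1 (e.injective (by rw [h, map_one]))
  · rw [← map_inv, ← map_mul, ← map_mul, hxy, map_inv]

theorem sylow_comm_of_equiv {G H : Type*} [Group G] [Group H] [Finite G] (e : G ≃* H)
    (h : ∀ T : Sylow 2 H, IsMulCommutative (T : Subgroup H)) (T : Sylow 2 G) : IsMulCommutative (T : Subgroup G) := by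
  have : Fact (Nat.Prime 2) := ⟨Nat.prime_two⟩
  have : Finite H := Finite.of_equiv G e.toEquiv
  obtain ⟨T', hT'⟩ := (T.isPGroup'.map e.toMonoidHom).exists_le_sylow
  refine ⟨⟨fun a b => Subtype.ext (e.injective ?_)⟩⟩
  have h1 := (h T').is_comm.comm (⟨e a, hT' (mem_map_of_mem e.toMonoidHom a.2)⟩ : (T' : Subgroup H))
    ⟨e b, hT' (mem_map_of_mem e.toMonoidHom b.2)⟩
  have h2 : e a * e b = e b * e a := congrArg Subtype.val h1
  show e (a * b : G) = e (b * a : G)
  rw [map_mul, map_mul, h2]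

theorem char2 [Fintype F] {n : ℕ} (hF : Fintype.card F = 2 ^ n) : CharP F 2 := by
  have : Fact (Nat.Prime 2) := ⟨Nat.prime_two⟩
  obtain ⟨p, hp⟩ := CharP.exists F
  have hpp : p.Prime := (CharP.char_is_prime_or_zero F p).resolve_right (CharP.char_ne_zero_of_finite F p)
  have h1 : p ∣ Fintype.card F := by
    rw [← CharP.cast_eq_zero_iff F p]
    exact FiniteField.cast_card_eq_zero F
  rw [hF] at h1
  have h2 : p = 2 := (Nat.prime_dvd_prime_iff_eq hpp Nat.prime_two).1 (hpp.dvd_of_dvd_pow h1)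
  exact h2 ▸ hp

theorem psl_even_comm [Fintype F] [CharP F 2] (T : Sylow 2 (Matrix.ProjectiveSpecialLinearGroup (Fin 2) F)) :
    IsMulCommutative (T : Subgroup (Matrix.ProjectiveSpecialLinearGroup (Fin 2) F)) := by
  have : Fact (Nat.Prime 2) := ⟨Nat.prime_two⟩
  obtain ⟨T', hT'⟩ := Sylow.mapSurjective_surjective
    (QuotientGroup.mk'_surjective (Subgroup.center SL(2, F))) 2 T
  obtain ⟨g, rfl⟩ := MulAction.exists_smul_eq SL(2, F) (ClSL2.sylowUS F 2) T'
  have hcomm : ∀ a ∈ ClSL2.US F, ∀ b ∈ ClSL2.US F, a * b = b * a := by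
    intro a ha b hb
    obtain ⟨s, rfl⟩ := ClSL2.exists_uS ha
    obtain ⟨t, rfl⟩ := ClSL2.exists_uS hb
    apply Subtype.ext
    ext i j
    fin_cases i <;> fin_cases j <;> simp [Matrix.mul_apply, Fin.sum_univ_two, add_comm]
  have hcomm2 : ∀ a ∈ (T : Subgroup (Matrix.ProjectiveSpecialLinearGroup (Fin 2) F)),
      ∀ b ∈ (T : Subgroup (Matrix.ProjectiveSpecialLinearGroup (Fin 2) F)), a * b = b * a := by
    intro a ha b hb
    rw [← hT'] at ha hb
    obtain ⟨a', ha', rfl⟩ := ha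
    obtain ⟨b', hb', rfl⟩ := hb
    rw [← map_mul, ← map_mul]
    congr 1
    obtain ⟨a'', ha'', rfl⟩ := ha'
    obtain ⟨b'', hb'', rfl⟩ := hb'
    change MulAut.conj g a'' * MulAut.conj g b'' = MulAut.conj g b'' * MulAut.conj g a''
    rw [← map_mul, ← map_mul, hcomm a'' ha'' b'' hb'']
  exact ⟨⟨fun a b => Subtype.ext (hcomm2 a a.2 b b.2)⟩⟩

theorem psl_odd_comm [Fintype F] {q : ℕ} (hF : Fintype.card F = q) (hq : q % 8 = 3 ∨ q % 8 = 5)
    (T : Sylow 2 (Matrix.ProjectiveSpecialLinearGroup (Fin 2) F)) :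
    IsMulCommutative (T : Subgroup (Matrix.ProjectiveSpecialLinearGroup (Fin 2) F)) := by
  have h := ClSL2Syl.sylow_two_PSL2_klein hF hq T
  have h4 : Nat.card (T : Subgroup (Matrix.ProjectiveSpecialLinearGroup (Fin 2) F)) = 2 ^ 2 := h.card_four
  have : Fact (Nat.Prime 2) := ⟨Nat.prime_two⟩
  exact IsPGroup.isMulCommutative_of_card_eq_prime_sq h4

/-- `q ≡ 3, 5 mod 8` a power of `3` is an odd power of `3` -/
theorem odd_power [Fintype F] {q : ℕ} (hF : Fintype.card F = q) (hq : q % 8 = 3 ∨ q % 8 = 5) (h3 : (3 : F) = 0) :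
    ∃ n : ℕ, Fintype.card F = 3 ^ (2 * n + 1) := by
  obtain ⟨p, hp⟩ := CharP.exists F
  have hpp : p.Prime := (CharP.char_is_prime_or_zero F p).resolve_right (CharP.char_ne_zero_of_finite F p)
  have h1 : p ∣ 3 := by
    rw [← CharP.cast_eq_zero_iff F p]
    exact_mod_cast h3
  have h2 : p = 3 := (Nat.prime_dvd_prime_iff_eq hpp Nat.prime_three).1 h1
  subst h2
  obtain ⟨m, -, hm⟩ := FiniteField.card F 3
  rcases Nat.even_or_odd' (m : ℕ) with ⟨k, hk | hk⟩
  · exfalso
    rw [hF, hk] at hm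
    have h5 : q % 8 = 1 := by
      rw [hm, pow_mul, Nat.pow_mod]
      norm_num
    omega
  · exact ⟨k, by rw [hm, hk]⟩

end Cfsg.Agent.Lib.GoldA95
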