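import Cfsg.Agent.S3277

set_option autoImplicit false
set_option linter.style.haveILetI false
set_option linter.deprecated false

namespace Cfsg.Agent.Lib.GoldB95

/-- Piece B of S2755: a finite group `X` with a four-group `D` which is the centralizer of each
of its involutions, and an element fusing two involutions of `D`: the order is 12 or 60. -/
theorem card_eq {X : Type*} [Group X] [Finite X] (D : Subgroup X) (hD : Nat.card D = 4)
    (hDe : ∀ c ∈ D, c ^ 2 = 1)
    (hC : ∀ d ∈ D, d ≠ 1 → Subgroup.centralizer ({d} : Set X) = D)
    (y d : X) (hd : d ∈ D) (hyd : y * d * y⁻¹ ∈ D) (hne : y * d * y⁻¹ ≠ d) :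
    Nat.card X ≤ 12 ∨ Nat.card X = 60 := by
  classical
  have hd1 : d ≠ 1 := by rintro rfl; exact hne (by group)
  have hab : ∀ a ∈ D, ∀ b ∈ D, a * b = b * a := by
    intro a ha b hb
    by_cases ha1 : a = 1
    · rw [ha1]; group
    · rw [← hC a ha ha1, Subgroup.mem_centralizer_singleton_iff] at hb
      exact hb.symm
  have ho : orderOf d = 2 := by
    have := orderOf_eq_prime (hDe d hd) hd1
    exact this
  by_cases hN : ∃ E : Subgroup X, E.Normal ∧ Cfsg.IsElementaryAbelian 2 E ∧ (Nat.card E = 2 ∨ Nat.card E = 4)
  · left
    obtain ⟨E, hEn, hEe, hE⟩ := hN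
    haveI := hEn
    -- `D` meets `E`
    have hfix : ∃ e ∈ E, e ≠ 1 ∧ e ∈ D := by
      haveI : Fact (Nat.Prime 2) := ⟨Nat.prime_two⟩
      let f : E → E := fun x => ⟨d * x * d⁻¹, hEn.conj_mem _ x.2 d⟩
      have hff : ∀ x, f (f x) = x := by
        intro x
        apply Subtype.ext
        show d * (d * x * d⁻¹) * d⁻¹ = x
        have h2 : d * d = 1 := by rw [← pow_two]; exact hDe d hd
        have h3 : d⁻¹ = d := inv_eq_of_mul_eq_one_left h2
        rw [h3]
        calc d * (d * (x : X) * d) * d = (d * d) * x * (d * d) := by group
          _ = x := by rw [h2]; group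
      haveI : Fintype E := Fintype.ofFinite E
      let f' : Function.End E := f
      have hpow : f' ^ 2 ^ 1 = 1 := by
        rw [pow_one, pow_two]
        funext x
        exact hff x
      have hmod : Fintype.card E ≡ Fintype.card (Function.fixedPoints f) [MOD 2] :=
        Equiv.Perm.card_fixedPoints_modEq (f := f') (p := 2) (n := 1) hpow
      have heven : 2 ∣ Fintype.card E := by
        rw [← Nat.card_eq_fintype_card]
        rcases hE with h | h <;> rw [h] <;> norm_num
      have hfe : 2 ∣ Fintype.card (Function.fixedPoints f) := by
        have := (Nat.modEq_zero_iff_dvd.2 heven).symm.trans hmod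
        exact (Nat.modEq_zero_iff_dvd.1 this.symm)
      have h1 : (1 : E) ∈ Function.fixedPoints f := by
        show f 1 = 1
        apply Subtype.ext
        show d * ((1 : E) : X) * d⁻¹ = 1
        rw [Subgroup.coe_one]; group
      have hlt : 1 < Fintype.card (Function.fixedPoints f) := by
        have hpos : 0 < Fintype.card (Function.fixedPoints f) := Fintype.card_pos_iff.2 ⟨⟨1, h1⟩⟩
        omega
      obtain ⟨⟨e, he⟩, hne1⟩ := Fintype.exists_ne_of_one_lt_card hlt ⟨1, h1⟩
      refine ⟨e, e.2, ?_, ?_⟩
      · intro h
        apply hne1
        apply Subtype.ext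
        exact Subtype.ext h
      · rw [← hC d hd hd1, Subgroup.mem_centralizer_singleton_iff]
        have h4 : d * (e : X) * d⁻¹ = e := congrArg Subtype.val he
        calc (e : X) * d = d * e * d⁻¹ * d := by rw [h4]
          _ = d * e := by group
    obtain ⟨e, heE, he1, heD⟩ := hfix
    have hED : E ≤ D := by
      intro x hx
      rw [← hC e heD he1, Subgroup.mem_centralizer_singleton_iff]
      have := hEe.1
      have h5 := isMulCommutative_iff.1 this ⟨x, hx⟩ ⟨e, heE⟩
      exact congrArg Subtype.val h5
    rcases hE with hE | hE
    · -- `E` is central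
      exfalso
      have hcen : ∀ g : X, g * e = e * g := by
        intro g
        have hge : g * e * g⁻¹ ∈ E := hEn.conj_mem e heE g
        obtain ⟨a, b, hab', huniv⟩ := (Nat.card_eq_two_iff (α := E)).1 hE
        have hall : ∀ z : E, z = 1 ∨ z = ⟨e, heE⟩ := by
          intro z
          by_contra hcon
          push Not at hcon
          have h3 : 3 ≤ Nat.card E := by
            haveI : Fintype E := Fintype.ofFinite E
            rw [Nat.card_eq_fintype_card]
            have : ({1, ⟨e, heE⟩, z} : Finset E).card = 3 := by
              rw [Finset.card_insert_of_notMem, Finset.card_insert_of_notMem, Finset.card_singleton]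
              · simp only [Finset.mem_singleton]; exact fun h => hcon.2 h.symm
              · simp only [Finset.mem_insert, Finset.mem_singleton, not_or]
                refine ⟨fun h => he1 (congrArg Subtype.val h).symm, fun h => hcon.1 h.symm⟩
            rw [← this]
            exact Finset.card_le_univ _
          omega
        rcases hall ⟨g * e * g⁻¹, hge⟩ with h | h
        · exfalso
          apply he1
          have h6 : g * e * g⁻¹ = 1 := congrArg Subtype.val h
          calc e = g⁻¹ * (g * e * g⁻¹) * g := by group
            _ = 1 := by rw [h6]; group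
        · have h6 : g * e * g⁻¹ = e := congrArg Subtype.val h
          calc g * e = g * e * g⁻¹ * g := by group
            _ = e * g := by rw [h6]
      have htop : D = ⊤ := by
        rw [← hC e heD he1, eq_top_iff]
        intro g _
        rw [Subgroup.mem_centralizer_singleton_iff]
        exact hcen g
      apply hne
      have := hab y (by rw [htop]; trivial) d hd
      rw [this]; group
    · have hEDeq : E = D := Subgroup.eq_of_le_of_card_ge hED (by rw [hD, hE])
      have hDn : D.Normal := hEDeq ▸ hEn
      haveI := hDn
      have hidx : D.index ≤ 3 := by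
        let f : X ⧸ D → {x : D // x ≠ 1} := Quotient.lift
          (fun g : X => (⟨⟨g * d * g⁻¹, hDn.conj_mem d hd g⟩, by
            intro h
            apply hd1
            have h8 : g * d * g⁻¹ = 1 := congrArg Subtype.val h
            calc d = g⁻¹ * (g * d * g⁻¹) * g := by group
              _ = 1 := by rw [h8]; group⟩ : {x : D // x ≠ 1}))
          (by
            intro a b hab'
            have h9 : a⁻¹ * b ∈ D := QuotientGroup.leftRel_apply.1 hab'
            have h10 := hab _ h9 d hd
            apply Subtype.ext
            apply Subtype.ext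
            show a * d * a⁻¹ = b * d * b⁻¹
            calc a * d * a⁻¹ = a * (d * (a⁻¹ * b)) * b⁻¹ := by group
              _ = a * (a⁻¹ * b * d) * b⁻¹ := by rw [h10]
              _ = b * d * b⁻¹ := by group)
        have hinj : Function.Injective f := by
          intro a b
          induction a using QuotientGroup.induction_on with
          | _ a =>
            induction b using QuotientGroup.induction_on with
            | _ b =>
              intro h
              have h11 : a * d * a⁻¹ = b * d * b⁻¹ :=
                congrArg (fun z : {x : D // x ≠ 1} => ((z : D) : X)) h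
              rw [QuotientGroup.eq, ← hC d hd hd1, Subgroup.mem_centralizer_singleton_iff]
              calc a⁻¹ * b * d = a⁻¹ * (b * d * b⁻¹) * b := by group
                _ = a⁻¹ * (a * d * a⁻¹) * b := by rw [h11]
                _ = d * (a⁻¹ * b) := by group
        have hcd : Nat.card {x : D // x ≠ 1} = 3 := by
          haveI : Fintype D := Fintype.ofFinite D
          rw [Nat.card_eq_fintype_card, Fintype.card_subtype_compl, Fintype.card_subtype_eq,
            ← Nat.card_eq_fintype_card, hD]
        rw [Subgroup.index_eq_card, ← hcd]
        exact Nat.card_le_card_of_injective f hinj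
      have := D.card_mul_index
      rw [hD] at this
      omega
  · right
    push Not at hN
    have hnc : ¬ Cfsg.HasNormalPComplement 2 X := by
      rintro ⟨P, N, hN1, hN2⟩
      haveI : Fact (Nat.Prime 2) := ⟨Nat.prime_two⟩
      have hDp : IsPGroup 2 D := by
        rw [IsPGroup.iff_card]; exact ⟨2, by rw [hD]; norm_num⟩
      obtain ⟨S, hS⟩ := hDp.exists_le_sylow
      have hSD : (S : Subgroup X) ≤ D := by
        haveI : Nontrivial (S : Subgroup X) := ⟨⟨⟨d, hS hd⟩, 1, fun h => hd1 (congrArg Subtype.val h)⟩⟩
        obtain ⟨⟨z, hz⟩, hz1'⟩ := (Subgroup.ne_bot_iff_exists_ne_one).1 (IsPGroup.bot_lt_center S.2).ne'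
        have hz1 : z ≠ 1 := fun h => hz1' (Subtype.ext h)
        have hzc : ∀ s ∈ (S : Subgroup X), s * (z : X) = z * s := by
          intro s hs
          have := (Subgroup.mem_center_iff.1 hz) ⟨s, hs⟩
          exact congrArg Subtype.val this
        have hzD : ((z : (S : Subgroup X)) : X) ∈ D := by
          rw [← hC d hd hd1, Subgroup.mem_centralizer_singleton_iff]
          exact (hzc d (hS hd)).symm
        intro s hs
        rw [← hC z hzD (fun h => hz1 (Subtype.ext h)), Subgroup.mem_centralizer_singleton_iff]
        exact hzc s hs
      have hPS : Nat.card P = 4 := by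
        have h1 : Nat.card P = Nat.card S := by
          rw [Sylow.card_eq_multiplicity, Sylow.card_eq_multiplicity]
        rw [h1, ← hD]
        exact congrArg (fun H : Subgroup X => Nat.card H) (le_antisymm hSD hS)
      haveI := hN1
      have hQ : Nat.card (X ⧸ N) = 2 ^ 2 := by
        have h1 := hN2.card_mul
        have h2 := N.card_mul_index
        have hpos : 0 < Nat.card N := Nat.card_pos
        rw [hPS] at h1
        rw [← Subgroup.index_eq_card]
        have : Nat.card N * 4 = Nat.card N * N.index := by rw [h1, h2]
        have := Nat.eq_of_mul_eq_mul_left hpos this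
        omega
      have hcomm := IsPGroup.commutative_of_card_eq_prime_sq hQ
      have heq : (QuotientGroup.mk (y * d * y⁻¹) : X ⧸ N) = QuotientGroup.mk d := by
        rw [QuotientGroup.mk_mul, QuotientGroup.mk_mul, hcomm _ (QuotientGroup.mk d : X ⧸ N), mul_assoc,
          ← QuotientGroup.mk_mul, mul_inv_cancel]
        simp
      rw [QuotientGroup.eq] at heq
      -- an element of `D ∩ N`
      set w := (y * d * y⁻¹)⁻¹ * d with hw
      have hwD : w ∈ D := D.mul_mem (D.inv_mem hyd) hd
      have hw1 : w ≠ 1 := by
        intro h
        apply hne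
        rw [hw] at h
        exact (eq_of_inv_mul_eq_one h)
      have hcop : Nat.Coprime (Nat.card N) 2 := by
        have h1 := P.not_dvd_index
        have h2 := N.card_mul_index
        have h3 := (P : Subgroup X).card_mul_index
        have h4 := hN2.card_mul
        have hpos : 0 < Nat.card (P : Subgroup X) := Nat.card_pos
        have h5 : (P : Subgroup X).index = Nat.card N := by
          have : Nat.card (P : Subgroup X) * (P : Subgroup X).index = Nat.card (P : Subgroup X) * Nat.card N := by
            rw [h3, mul_comm (Nat.card (P : Subgroup X)), h4]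
          exact Nat.eq_of_mul_eq_mul_left hpos this
        rw [h5] at h1
        exact (Nat.Prime.coprime_iff_not_dvd Nat.prime_two).2 h1 |>.symm
      have hwo : orderOf w = 2 := orderOf_eq_prime (hDe w hwD) hw1
      have hdvd : orderOf w ∣ Nat.card N := by
        have := orderOf_dvd_natCard (⟨w, heq⟩ : N)
        rwa [Subgroup.orderOf_mk] at this
      rw [hwo] at hdvd
      have := Nat.Coprime.eq_one_of_dvd hcop.symm hdvd
      omega
    have hC4 : Nat.card ↥(Subgroup.centralizer ({d} : Set X)) = 4 := by rw [hC d hd hd1]; exact hD
    obtain ⟨e⟩ := Cfsg.Agent.S3277.result d ho hC4 (by rw [hC d hd hd1]; exact hDe) hnc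
      (fun E h1 h2 => by
        have := hN E h1 h2
        exact ⟨this.1, this.2⟩)
    rw [Nat.card_congr e.toEquiv, Nat.card_eq_fintype_card]
    decide

end Cfsg.Agent.Lib.GoldB95
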