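import Mathlib
import Cfsg.Agent.Lib.ReePSL
import Cfsg.Agent.Lib.BinPslA
import Cfsg.Agent.Lib.BinPslE
import Cfsg.Agent.Lib.ClSL2Syl

/-!
# `PSL(2,q)`, `q ≡ 3 mod 4` a power of three: data for the exceptional characters (helper1)
-/

set_option autoImplicit false

namespace Cfsg.Agent.Lib.GoldC95p

open Matrix Cfsg.Agent.Lib.SL2Basic Cfsg.Agent.Lib.BinPslA
open scoped MatrixGroups

universe u

variable {F : Type u} [Field F]

local notation "SL2" => Matrix.SpecialLinearGroup (Fin 2) F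
local notation "M2" => Matrix (Fin 2) (Fin 2) F
local notation "PSL2" => Matrix.ProjectiveSpecialLinearGroup (Fin 2) F

theorem coe_uu (s : F) : ((uu s : SL2) : M2) = !![1, s; 0, 1] := rfl

theorem uu_mul (a b : F) : (uu a : SL2) * uu b = uu (a + b) := by
  apply Subtype.ext
  change (uu a : M2) * (uu b : M2) = (uu (a + b) : M2)
  rw [coe_uu, coe_uu, coe_uu]
  ext i j
  fin_cases i <;> fin_cases j <;> simp [add_comm]

/-- the root homomorphism -/
def U : Multiplicative F →* PSL2 where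
  toFun s := mk (uu (Multiplicative.toAdd s))
  map_one' := by
    change mk (uu (0 : F)) = 1
    rw [mk_eq_one]; left
    apply Subtype.ext
    rw [coe_uu]
    ext i j
    fin_cases i <;> fin_cases j <;> simp
  map_mul' a b := by
    rw [toAdd_mul, ← uu_mul, mk_mul]

def uP (s : F) : PSL2 := mk (uu s)

theorem uP_eq (s : F) : (U (Multiplicative.ofAdd s) : PSL2) = uP s := rfl

theorem uP_inj (h2 : (2 : F) ≠ 0) {a b : F} (h : (uP a : PSL2) = uP b) : a = b := by
  rcases mk_eq.1 h with h | h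
  · have := congrArg (fun A : SL2 => (A : M2) 0 1) h
    simpa [coe_uu] using this
  · exfalso
    have := congrArg (fun A : SL2 => (A : M2) 0 0) h
    simp [coe_uu] at this
    apply h2
    linear_combination this

theorem uP_zero : (uP 0 : PSL2) = 1 := map_one U

theorem uP_add (a b : F) : (uP (a + b) : PSL2) = uP a * uP b := map_mul U _ _

theorem uP_neg (a : F) : (uP (-a) : PSL2) = (uP a)⁻¹ := map_inv U (Multiplicative.ofAdd a)

theorem uP_comm (a b : F) : (uP a : PSL2) * uP b = uP b * uP a := by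
  rw [← uP_add, ← uP_add, add_comm]

/-- the unipotent subgroup -/
def PP (F : Type u) [Field F] : Subgroup (Matrix.ProjectiveSpecialLinearGroup (Fin 2) F) := (U (F := F)).range

theorem mem_PP {x : PSL2} : x ∈ PP F ↔ ∃ s : F, uP s = x := by
  constructor
  · rintro ⟨s, hs⟩; exact ⟨Multiplicative.toAdd s, hs⟩
  · rintro ⟨s, hs⟩; exact ⟨Multiplicative.ofAdd s, hs⟩

theorem card_PP [Fintype F] (h2 : (2 : F) ≠ 0) : Nat.card (PP F) = Fintype.card F := by
  have : Function.Injective (U (F := F)) := fun a b h => by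
    have := uP_inj h2 (a := Multiplicative.toAdd a) (b := Multiplicative.toAdd b) h
    exact this
  have h1 := Nat.card_congr (MonoidHom.ofInjective this).symm.toEquiv
  rw [PP, h1, ← Nat.card_eq_fintype_card]
  exact Nat.card_congr Multiplicative.toAdd

/-- no element inverts a unipotent element -/
theorem no_inv (h2 : (2 : F) ≠ 0) (hns : ¬ IsSquare (-1 : F)) {s : F} (hs : s ≠ 0) (k : PSL2) :
    k⁻¹ * uP s * k ≠ (uP s)⁻¹ := by
  intro h
  rw [← uP_neg] at h
  have h1 : uP s * k = k * uP (-s) := by rw [← h]; group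
  obtain ⟨A, rfl⟩ := mk_surj k
  have hd := det2 A
  rcases mk_eq.1 (show mk (uu s * A) = mk (A * uu (-s)) from h1) with h3 | h3
  · have e0 := congrArg (fun A : SL2 => (A : M2) 0 0) h3
    have e1 := congrArg (fun A : SL2 => (A : M2) 0 1) h3
    simp [coe_uu, Matrix.mul_apply, Fin.sum_univ_two] at e0 e1
    have hc : (A : M2) 1 0 = 0 := e0.resolve_left hs
    have had : (A : M2) 1 1 = -(A : M2) 0 0 := by
      apply mul_left_cancel₀ hs
      linear_combination e1
    rw [hc, had] at hd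
    exact hns ⟨(A : M2) 0 0, by linear_combination hd⟩
  · have h4 : A⁻¹ * uu s * A = -(uu (-s)) := by
      rw [mul_assoc, h3]
      apply Subtype.ext
      simp [← Matrix.mul_assoc, Matrix.adjugate_mul]
    have h5 := congrArg tr h4
    have h6 := tr_conj (uu s) A⁻¹
    rw [inv_inv] at h6
    rw [h6, tr_neg, tr_def, tr_def] at h5
    simp [coe_uu] at h5
    have : (2 : F) * 2 = 0 := by linear_combination h5
    exact h2 (mul_self_eq_zero.1 this)

/-- one of two non-zero elements differing by a sign is a square multiple -/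
theorem conj_or (hor : ∀ x : F, IsSquare x ∨ IsSquare (-x)) {s t : F} (hs : s ≠ 0) (ht : t ≠ 0) :
    (∃ k : PSL2, k⁻¹ * uP s * k = uP t) ∨ ∃ k : PSL2, k⁻¹ * uP s * k = (uP t)⁻¹ := by
  have key : ∀ r : F, r ≠ 0 → IsSquare (s * r) → ∃ k : PSL2, k⁻¹ * uP s * k = uP r := by
    rintro r hr ⟨a, ha⟩
    have ha0 : a ≠ 0 := by
      rintro rfl
      rw [mul_zero] at ha
      exact mul_ne_zero hs hr ha
    let A : SL2 := ⟨!![a / r, 0; 0, r / a], by
      rw [Matrix.det_fin_two]; simp; field_simp⟩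
    refine ⟨mk A, ?_⟩
    have h1 : uu s * A = A * uu r := by
      apply Subtype.ext
      change (uu s : M2) * (A : M2) = (A : M2) * (uu r : M2)
      have : (A : M2) = !![a / r, 0; 0, r / a] := rfl
      rw [this, coe_uu, coe_uu]
      ext i j
      fin_cases i <;> fin_cases j <;> simp [Matrix.mul_apply, Fin.sum_univ_two]
      field_simp
      linear_combination ha
    have h2 : uP s * mk A = mk A * uP r := congrArg mk h1
    rw [mul_assoc, h2, inv_mul_cancel_left]
  rcases hor (s * t) with h | h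
  · exact Or.inl (key t ht h)
  · right
    rw [← uP_neg]
    exact key (-t) (neg_ne_zero.2 ht) (by rwa [mul_neg])

theorem card_conj {G : Type*} [Group G] [Finite G] (x z : G) (h : ∃ k : G, k⁻¹ * x * k = z) :
    Nat.card {k : G // k⁻¹ * x * k = z} = Nat.card (Subgroup.centralizer ({x} : Set G)) := by
  obtain ⟨k₀, hk₀⟩ := h
  refine Nat.card_congr ⟨fun k => ⟨k.1 * k₀⁻¹, ?_⟩, fun c => ⟨c.1 * k₀, ?_⟩, fun k => ?_, fun c => ?_⟩
  · rw [Subgroup.mem_centralizer_singleton_iff]
    have h1 : x * k.1 = k.1 * z := by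
      calc x * k.1 = k.1 * (k.1⁻¹ * x * k.1) := by group
        _ = k.1 * z := by rw [k.2]
    have h2 : x * k₀ = k₀ * z := by rw [← hk₀]; group
    calc k.1 * k₀⁻¹ * x = k.1 * (k₀⁻¹ * (x * k₀)) * k₀⁻¹ := by group
      _ = (k.1 * z) * k₀⁻¹ := by rw [h2]; group
      _ = x * (k.1 * k₀⁻¹) := by rw [← h1]; group
  · have h1 := Subgroup.mem_centralizer_singleton_iff.1 c.2
    calc (c.1 * k₀)⁻¹ * x * (c.1 * k₀) = k₀⁻¹ * c.1⁻¹ * (x * c.1) * k₀ := by group
      _ = k₀⁻¹ * x * k₀ := by rw [← h1]; group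
      _ = z := hk₀
  · apply Subtype.ext; simp
  · apply Subtype.ext; simp

theorem card_conj_zero {G : Type*} [Group G] (x z : G) (h : ¬ ∃ k : G, k⁻¹ * x * k = z) :
    Nat.card {k : G // k⁻¹ * x * k = z} = 0 := by
  haveI : IsEmpty {k : G // k⁻¹ * x * k = z} := ⟨fun k => h ⟨k.1, k.2⟩⟩
  exact Nat.card_of_isEmpty

theorem F1 [Fintype F] (h2 : (2 : F) ≠ 0) (hns : ¬ IsSquare (-1 : F)) (hor : ∀ x : F, IsSquare x ∨ IsSquare (-x))
    (hodd : Odd (Fintype.card F)) {x z : PSL2} (hx : x ∈ PP F) (hx1 : x ≠ 1) (hz : z ∈ PP F) (hz1 : z ≠ 1) :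
    Nat.card {k : PSL2 // k⁻¹ * x * k = z} + Nat.card {k : PSL2 // k⁻¹ * x * k = z⁻¹} = Fintype.card F := by
  obtain ⟨s, rfl⟩ := mem_PP.1 hx
  obtain ⟨t, rfl⟩ := mem_PP.1 hz
  have hs : s ≠ 0 := by rintro rfl; exact hx1 uP_zero
  have ht : t ≠ 0 := by rintro rfl; exact hz1 uP_zero
  have hcent : Nat.card (Subgroup.centralizer ({(uP s : PSL2)} : Set PSL2)) = Fintype.card F := by
    have hA : (uu s : SL2) ∉ Subgroup.center SL2 := noncentral (by
      intro h; exact hx1 h)
    have h3 := PSL2ClassSize.index_unip_odd h2 hA (by rw [tr_def, coe_uu]; simp; norm_num)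
    have h4 := Subgroup.card_mul_index (Subgroup.centralizer ({(uP s : PSL2)} : Set PSL2))
    change (Subgroup.centralizer ({(uP s : PSL2)} : Set PSL2)).index = _ at h3
    have h5 := ClSL2Syl.card_PSL2 hodd
    have h6 : Even (Fintype.card F ^ 2 - 1) := Nat.Odd.sub_odd hodd.pow odd_one
    have h7 : 0 < (Fintype.card F ^ 2 - 1) / 2 := by
      rw [← h3]; exact Nat.pos_of_ne_zero Subgroup.FiniteIndex.index_ne_zero
    rw [h3] at h4
    rw [← h4] at h5
    obtain ⟨m, hm⟩ := h6
    rw [hm] at h5 h7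
    have h8 : (m + m) / 2 = m := by omega
    rw [h8] at h5 h7
    have : Nat.card (Subgroup.centralizer ({(uP s : PSL2)} : Set PSL2)) * (2 * m) = Fintype.card F * (2 * m) := by
      linarith
    exact Nat.eq_of_mul_eq_mul_right (by omega) this
  have hnb : (∃ k : PSL2, k⁻¹ * uP s * k = uP t) → ¬ ∃ k : PSL2, k⁻¹ * uP s * k = (uP t)⁻¹ := by
    rintro ⟨k, hk⟩ ⟨l, hl⟩
    apply no_inv h2 hns ht (k⁻¹ * l)
    rw [← hl, ← hk]; group
  rcases conj_or hor hs ht with h | h
  · rw [card_conj _ _ h, card_conj_zero _ _ (hnb h), hcent, add_zero]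
  · rw [card_conj _ _ h, card_conj_zero _ _ (fun h' => hnb h' h), hcent, zero_add]

/-- the number of involutions -/
theorem F3 [Fintype F] (hodd : Odd (Fintype.card F)) (h3 : 3 ≤ Fintype.card F) (h4 : Fintype.card F % 4 = 3)
    {s : PSL2} (hs1 : s ≠ 1) (hs : s * s = 1) :
    2 * Nat.card {k : PSL2 // k * k = 1 ∧ k ≠ 1} + Fintype.card F = Fintype.card F ^ 2 := by
  obtain ⟨h5, h6, -⟩ := BinPslE.cen_facts hodd h3 hs1 hs
  have h7 : Nat.card (BinPslE.cen s) = Fintype.card F + 1 := by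
    rcases h6 with h6 | h6
    · rw [h6] at h5; omega
    · exact h6
  have h8 : Nat.card {k : PSL2 // k * k = 1 ∧ k ≠ 1} = (BinPslE.cen s).index := by
    have h9 : (BinPslE.cen s).index = Nat.card (MulAction.orbit (ConjAct PSL2) s) := by
      have := MulAction.index_stabilizer (ConjAct PSL2) s
      rw [← Nat.card_coe_set_eq] at this
      rw [← this]
      rw [ConjAct.stabilizer_eq_centralizer]
      have h10 : (Subgroup.centralizer (ConjAct.toConjAct '' ({s} : Set PSL2)) : Subgroup (ConjAct PSL2)) =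
        (BinPslE.cen s).map (ConjAct.toConjAct (G := PSL2)).toMonoidHom := by
        ext x
        simp only [Subgroup.mem_map]
        constructor
        · intro hx
          refine ⟨ConjAct.ofConjAct x, ?_, rfl⟩
          rw [BinPslE.mem_cen]
          have := (Subgroup.mem_centralizer_iff.1 hx) (ConjAct.toConjAct s) ⟨s, rfl, rfl⟩
          exact this.symm
        · rintro ⟨y, hy, rfl⟩
          rw [Subgroup.mem_centralizer_iff]
          rintro _ ⟨_, rfl, rfl⟩
          exact (BinPslE.mem_cen.1 hy).symm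
      rw [show (Subgroup.centralizer ({ConjAct.toConjAct s} : Set (ConjAct PSL2)) : Subgroup (ConjAct PSL2)) =
        (BinPslE.cen s).map (ConjAct.toConjAct (G := PSL2)).toMonoidHom from by
          rw [← h10, Set.image_singleton]]
      rw [Subgroup.index_map_of_bijective (ConjAct.toConjAct (G := PSL2)).bijective]
    rw [h9]
    refine Nat.card_congr (Equiv.subtypeEquivRight ?_)
    intro k
    rw [ConjAct.mem_orbit_conjAct, isConj_comm, isConj_iff]
    constructor
    · rintro ⟨hk, hk1⟩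
      exact exists_conj_of_invol hs1 hs hk1 hk
    · rintro ⟨g, rfl⟩
      refine ⟨?_, ?_⟩
      · calc g * s * g⁻¹ * (g * s * g⁻¹) = g * (s * s) * g⁻¹ := by group
          _ = 1 := by rw [hs]; group
      · intro h
        exact hs1 (conj_eq_one_iff.1 h)
  have h9 := Subgroup.card_mul_index (BinPslE.cen s)
  rw [h7, ← h8] at h9
  have h10 := ClSL2Syl.card_PSL2 hodd
  rw [← h9] at h10
  have h11 : Fintype.card F ^ 2 - 1 = (Fintype.card F + 1) * (Fintype.card F - 1) := by
    have := Nat.sq_sub_sq (Fintype.card F) 1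
    rwa [one_pow] at this
  rw [h11] at h10
  set q := Fintype.card F
  set N := Nat.card {k : PSL2 // k * k = 1 ∧ k ≠ 1}
  have h12 : (q + 1) * (2 * N) = (q + 1) * (q * (q - 1)) := by
    rw [show (q + 1) * (2 * N) = 2 * ((q + 1) * N) by ring, h10]; ring
  have h13 := Nat.eq_of_mul_eq_mul_left (by omega) h12
  obtain ⟨r, hr⟩ : ∃ r, q = r + 1 := ⟨q - 1, by omega⟩
  rw [h13, hr, Nat.add_sub_cancel]; ring

/-- the torus of an element of odd order dividing `q + 1` -/
theorem tor [Fintype F] [CharP F 3] (h4 : 4 ≤ Fintype.card F) (hodd : Odd (Fintype.card F))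
    {w : PSL2} (hw1 : w ≠ 1) (hwo : Odd (orderOf w)) (hwd : orderOf w ∣ Fintype.card F + 1) :
    ∃ T N : Subgroup PSL2, T ≤ N ∧ w ∈ T ∧ 2 * Nat.card T = Fintype.card F + 1 ∧ Nat.card N = 2 * Nat.card T ∧
      (∀ t ∈ N, t ∉ T → t * t = 1) ∧ (∀ t ∈ T, t * w = w * t) ∧ (∀ t ∈ N, t ∉ T → t * w * t⁻¹ = w⁻¹) ∧
      (∀ g : PSL2, g * w * g⁻¹ ∈ Subgroup.zpowers w → g ∈ N) := by
  haveI : Fact (Nat.Prime 3) := ⟨by norm_num⟩
  have h3 : ¬ 3 ∣ orderOf w := by
    intro h
    have h5 : 3 ∣ Fintype.card F + 1 := h.trans hwd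
    obtain ⟨n, hn, hn'⟩ := FiniteField.card F 3
    rw [hn'] at h5
    have h6 : 3 ∣ 3 ^ (n : ℕ) := dvd_pow_self 3 n.pos.ne'
    have h7 := (Nat.dvd_add_right h6).1 h5
    norm_num at h7
  obtain ⟨T, N, hTN, hT, hwT, hcT, hcN, hsq, hn⟩ := ReePSL.tor 3 h4 w hw1 h3
  have hgcd : Nat.gcd 2 (Fintype.card F - 1) = 2 := by
    have : Even (Fintype.card F - 1) := Nat.Odd.sub_odd hodd odd_one
    exact Nat.gcd_eq_left this.two_dvd
  rw [hgcd] at hcT
  refine ⟨T, N, hTN, hwT, ?_, hcN, hsq, ?_, ?_, hn⟩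
  · rcases hcT with h | h
    · exfalso
      have h5 : orderOf w ∣ Fintype.card F - 1 := by
        rw [← h]
        exact Dvd.dvd.mul_left (Subgroup.orderOf_dvd_natCard T hwT) 2
      have h6 : orderOf w ∣ 2 := by
        have := Nat.dvd_sub hwd h5
        have h7 : Fintype.card F + 1 - (Fintype.card F - 1) = 2 := by omega
        rwa [h7] at this
      have h7 := (Nat.dvd_prime Nat.prime_two).1 h6
      rcases h7 with h7 | h7
      · exact hw1 (orderOf_eq_one_iff.1 h7)
      · rw [h7] at hwo; exact absurd hwo (by decide)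
    · exact h
  · intro t ht
    haveI := hT
    have : IsMulCommutative T := IsCyclic.isMulCommutative
    exact congrArg Subtype.val (mul_comm' (⟨t, ht⟩ : T) ⟨w, hwT⟩)
  · intro t ht htT
    exact ReePSL.inverts hTN hsq ht htT hwT


theorem tor_facts [Fintype F] [CharP F 3] (h4 : 4 ≤ Fintype.card F) (hodd : Odd (Fintype.card F))
    {w : PSL2} (hw1 : w ≠ 1) (hwo : Odd (orderOf w)) (hwd : orderOf w ∣ Fintype.card F + 1) :
    (∀ s : PSL2, s⁻¹ * w * s ∈ Subgroup.zpowers w → s⁻¹ * w * s = w ∨ s⁻¹ * w * s = w⁻¹) ∧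
      2 * Nat.card {s : PSL2 // s⁻¹ * w * s = w} = Fintype.card F + 1 ∧
      2 * Nat.card {s : PSL2 // s⁻¹ * w * s = w⁻¹} = Fintype.card F + 1 ∧
      (∀ s : PSL2, s⁻¹ * w * s = w⁻¹ → s * s = 1) := by
  obtain ⟨T, N, hTN, hwT, hcT, hcN, hsq, hTc, hNi, hn⟩ := tor h4 hodd hw1 hwo hwd
  have hww : w * w ≠ 1 := by
    intro h
    have h1 : orderOf w ∣ 2 := orderOf_dvd_of_pow_eq_one (by rw [pow_two, h])
    rcases (Nat.dvd_prime Nat.prime_two).1 h1 with h7 | h7
    · exact hw1 (orderOf_eq_one_iff.1 h7)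
    · rw [h7] at hwo; exact absurd hwo (by decide)
  have hwi : w ≠ w⁻¹ := fun h => hww (by nth_rewrite 1 [h]; exact inv_mul_cancel w)
  have hmem : ∀ s : PSL2, s⁻¹ * w * s ∈ Subgroup.zpowers w → s⁻¹ ∈ N := by
    intro s hs
    apply hn
    rwa [inv_inv]
  have hdich : ∀ s : PSL2, s⁻¹ ∈ N → (s ∈ T ∧ s⁻¹ * w * s = w) ∨ (s ∉ T ∧ s⁻¹ * w * s = w⁻¹) := by
    intro s hs
    by_cases hsT : s ∈ T
    · left
      refine ⟨hsT, ?_⟩
      rw [hTc _ (inv_mem hsT), inv_mul_cancel_right]
    · right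
      refine ⟨hsT, ?_⟩
      have := hNi _ hs (fun h => hsT (by simpa using inv_mem h))
      rwa [inv_inv] at this
  have hfix : ∀ s : PSL2, s⁻¹ * w * s = w ↔ s ∈ T := by
    intro s
    constructor
    · intro h
      rcases hdich s (hmem s (by rw [h]; exact Subgroup.mem_zpowers w)) with h1 | h1
      · exact h1.1
      · exact absurd (h.symm.trans h1.2) hwi
    · intro h
      rw [hTc _ (inv_mem h), inv_mul_cancel_right]
  have hinvm : ∀ s : PSL2, s⁻¹ * w * s = w⁻¹ → s ∈ N ∧ s ∉ T := by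
    intro s h
    have h1 := hmem s (by rw [h]; exact inv_mem (Subgroup.mem_zpowers w))
    refine ⟨by simpa using inv_mem h1, ?_⟩
    rcases hdich s h1 with h2 | h2
    · exact absurd (h2.2.symm.trans h) hwi
    · exact h2.1
  have c1 : 2 * Nat.card {s : PSL2 // s⁻¹ * w * s = w} = Fintype.card F + 1 := by
    rw [← hcT]
    congr 1
    exact Nat.card_congr (Equiv.subtypeEquivRight hfix)
  refine ⟨fun s hs => ?_, c1, ?_, fun s hs => ?_⟩
  · rcases hdich s (hmem s hs) with h | h
    · exact Or.inl h.2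
    · exact Or.inr h.2
  · have hex : ∃ t, t ∈ N ∧ t ∉ T := by
      by_contra hcon
      push Not at hcon
      have h1 := Subgroup.card_le_of_le (show N ≤ T from hcon)
      have h2 : 0 < Nat.card T := Nat.card_pos
      omega
    obtain ⟨t, htN, htT⟩ := hex
    have h1 : ∃ k : PSL2, k⁻¹ * w * k = w⁻¹ := by
      rcases hdich t (inv_mem htN) with h | h
      · exact absurd h.1 htT
      · exact ⟨t, h.2⟩
    rw [card_conj _ _ h1, ← c1, card_conj w w ⟨1, by simp⟩]
  · obtain ⟨h1, h2⟩ := hinvm s hs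
    exact hsq s h1 h2

theorem sq_or [Fintype F] (h4 : Fintype.card F % 4 = 3) (h2 : (2 : F) ≠ 0) (x : F) : IsSquare x ∨ IsSquare (-x) := by
  have hch : ringChar F ≠ 2 := by
    intro h
    apply h2
    have := ringChar.Nat.cast_ringChar (R := F)
    rw [h] at this
    exact_mod_cast this
  by_cases hx : x = 0
  · left; rw [hx]; exact IsSquare.zero
  rcases FiniteField.pow_dichotomy hch hx with h | h
  · exact Or.inl ((FiniteField.isSquare_iff hch hx).2 h)
  · right
    rw [FiniteField.isSquare_iff hch (neg_ne_zero.2 hx), neg_eq_neg_one_mul, mul_pow, h,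
      Odd.neg_one_pow (Nat.odd_iff.2 (by omega))]
    ring

end Cfsg.Agent.Lib.GoldC95p
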