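import Mathlib
import Cfsg.Prelude.Def_TwoFusion
import Cfsg.Agent.Lib.GoldC95i
import Cfsg.Agent.Lib.GoldC95p
import Cfsg.Agent.Lib.H23Nilp

/-!
# Piece C of S2755: the centralizer of an involution `⟨τ⟩ × PSL(2, 3^(2n+1))` forces `3^(2n+2) ∣ |G|` (helper1)
-/

set_option autoImplicit false

namespace Cfsg.Agent.Lib.GoldC95

open Cfsg.Agent.Lib.GoldC95p

theorem loc_of_prod {G : Type*} [Group G] {τ : G} {K : Subgroup G} (hτ : orderOf τ = 2)
    (hK : Cfsg.IsInternalDirectProduct (Subgroup.zpowers τ) K (Subgroup.centralizer ({τ} : Set G))) : Loc τ K := by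
  obtain ⟨h1, h2, h3, h4, h5⟩ := hK
  have htt : τ * τ = 1 := by
    have := pow_orderOf_eq_one τ
    rwa [hτ, pow_two] at this
  have ht1 : τ ≠ 1 := fun h => by rw [h, orderOf_one] at hτ; omega
  have htK : τ ∉ K := by
    intro h
    apply ht1
    have : τ ∈ Subgroup.zpowers τ ⊓ K := ⟨Subgroup.mem_zpowers τ, h⟩
    rw [h4] at this
    exact Subgroup.mem_bot.1 this
  have hcK : ∀ k ∈ K, k * τ = τ * k := fun k hk => (h3 τ (Subgroup.mem_zpowers τ) k hk).symm
  have hti : τ⁻¹ = τ := inv_eq_of_mul_eq_one_right htt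
  refine ⟨htt, htK, hcK, ?_⟩
  intro g hg
  have hgC : g ∈ Subgroup.centralizer ({τ} : Set G) := Subgroup.mem_centralizer_singleton_iff.2 hg
  rw [← h5] at hgC
  let K' : Subgroup G :=
    { carrier := {g | g ∈ K ∨ τ * g ∈ K}
      one_mem' := Or.inl K.one_mem
      mul_mem' := by
        intro a b ha hb
        have comm : ∀ x, τ * x ∈ K → x * τ = τ * x := by
          intro x hx
          have := hcK _ hx
          calc x * τ = τ * τ * x * τ := by rw [htt, one_mul]
            _ = τ * (τ * x * τ) := by group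
            _ = τ * (τ * (τ * x)) := by rw [this]
            _ = (τ * τ) * (τ * x) := by group
            _ = τ * x := by rw [htt, one_mul]
        rcases ha with ha | ha
        · rcases hb with hb | hb
          · exact Or.inl (mul_mem ha hb)
          · right
            have : τ * (a * b) = a * (τ * b) := by rw [← mul_assoc, ← hcK a ha, mul_assoc]
            rw [this]; exact mul_mem ha hb
        · rcases hb with hb | hb
          · right
            rw [← mul_assoc]; exact mul_mem ha hb
          · left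
            have : a * b = (τ * a) * (τ * b) := by
              calc a * b = (τ * τ) * a * b := by rw [htt, one_mul]
                _ = τ * (τ * a) * b := by group
                _ = τ * (a * τ) * b := by rw [comm a ha]
                _ = (τ * a) * (τ * b) := by group
            rw [this]; exact mul_mem ha hb
      inv_mem' := by
        intro a ha
        rcases ha with ha | ha
        · exact Or.inl (inv_mem ha)
        · right
          have h6 := inv_mem ha
          have h7 := hcK _ h6
          have : τ * a⁻¹ = (τ * a)⁻¹ := by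
            calc τ * a⁻¹ = τ * (a⁻¹ * τ⁻¹) * τ := by group
              _ = τ * (τ * a)⁻¹ * τ := by rw [mul_inv_rev]
              _ = (τ * a)⁻¹ * τ * τ := by rw [← h7]
              _ = (τ * a)⁻¹ := by rw [mul_assoc, htt, mul_one]
          rw [this]; exact h6 }
  have hle : Subgroup.zpowers τ ⊔ K ≤ K' := by
    apply sup_le
    · rw [Subgroup.zpowers_le]
      right
      rw [htt]; exact K.one_mem
    · intro k hk
      exact Or.inl hk
  exact hle hgC

theorem card_tr {G S : Type*} [Group G] [Group S] {K : Subgroup G} (e : K ≃* S) (p : G → Prop) :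
    Nat.card {k : K // p k} = Nat.card {s : S // p (e.symm s : K)} :=
  Nat.card_congr
    { toFun := fun k => ⟨e k.1, by rw [e.symm_apply_apply]; exact k.2⟩
      invFun := fun s => ⟨e.symm s.1, s.2⟩
      left_inv := fun k => by apply Subtype.ext; simp
      right_inv := fun s => by apply Subtype.ext; simp }

theorem main {G : Type*} [Group G] [Finite G] {F : Type*} [Field F] [Fintype F] (n : ℕ) (hn : 1 ≤ n)
    (hF : Fintype.card F = 3 ^ (2 * n + 1)) (τ v y : G) (K U : Subgroup G)
    (hτ : orderOf τ = 2) (hv : orderOf v = 2) (hvτ : v ≠ τ) (hcomm : v * τ = τ * v)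
    (hK : Cfsg.IsInternalDirectProduct (Subgroup.zpowers τ) K (Subgroup.centralizer ({τ} : Set G)))
    (e : Nonempty (K ≃* Matrix.ProjectiveSpecialLinearGroup (Fin 2) F))
    (hyτ : y * τ * y⁻¹ = v) (hyv : y * v * y⁻¹ = τ * v) (hy3 : orderOf y = 3)
    (hUc : IsCyclic U) (hUcard : 4 * Nat.card U = Fintype.card F + 1)
    (hUτ : ∀ w ∈ U, w * τ = τ * w) (hUv : ∀ w ∈ U, w * v = v * w)
    (hyU : ∀ w ∈ U, y * w * y⁻¹ ∈ U) (hync : ∃ w ∈ U, y * w * y⁻¹ ≠ w) :
    3 ^ (2 * n + 2) ∣ Nat.card G := by
  classical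
  obtain ⟨e⟩ := e
  have L := loc_of_prod hτ hK
  have htt := L.tt
  have ht1 : τ ≠ 1 := fun h => by rw [h, orderOf_one] at hτ; omega
  have hvv : v * v = 1 := by
    have := pow_orderOf_eq_one v
    rwa [hv, pow_two] at this
  have hv1 : v ≠ 1 := fun h => by rw [h, orderOf_one] at hv; omega
  have hy3' : y * y * y = 1 := by
    have := pow_orderOf_eq_one y
    rwa [hy3, pow_succ, pow_two] at this
  -- arithmetic of q
  set q := Fintype.card F with hq
  haveI : Fact (Nat.Prime 3) := ⟨by norm_num⟩
  haveI : CharP F 3 := charP_of_card_eq_prime_pow hF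
  have hq8 : q % 8 = 3 := by
    rw [hF, pow_succ, pow_mul]
    norm_num [Nat.mul_mod, Nat.pow_mod]
  have hodd : Odd q := Nat.odd_iff.2 (by omega)
  have hq27 : 27 ≤ q := by
    rw [hF]
    calc 27 = 3 ^ 3 := by norm_num
      _ ≤ 3 ^ (2 * n + 1) := Nat.pow_le_pow_right (by norm_num) (by omega)
  have h2 : (2 : F) ≠ 0 := BinPslE.two_ne hodd
  have hns : ¬ IsSquare (-1 : F) := by
    rw [FiniteField.isSquare_neg_one_iff]
    rw [← hq]; omega
  have hor : ∀ x : F, IsSquare x ∨ IsSquare (-x) := sq_or (by rw [← hq]; omega) h2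
  have hUodd : Odd (Nat.card U) := Nat.odd_iff.2 (by omega)
  -- U ≤ K
  have hUK : U ≤ K := by
    intro w hw
    rcases L.hC w (hUτ w hw) with h | h
    · exact h
    · exfalso
      have h1 : Odd (orderOf w) := hUodd.of_dvd_nat (Subgroup.orderOf_dvd_natCard U hw)
      have h3 : (τ * w) ^ orderOf w = τ := by
        have hc : Commute τ w := (hUτ w hw).symm
        rw [hc.mul_pow, pow_orderOf_eq_one, mul_one]
        obtain ⟨m, hm⟩ := h1
        rw [hm, pow_succ, pow_mul, pow_two, htt, one_pow, one_mul]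
      exact L.tK (by rw [← h3]; exact pow_mem h _)
  -- the embedding
  let f : Matrix.ProjectiveSpecialLinearGroup (Fin 2) F →* G := K.subtype.comp e.symm.toMonoidHom
  have fapp : ∀ s, f s = ((e.symm s : K) : G) := fun s => rfl
  have finj : Function.Injective f := fun a b h => e.symm.injective (Subtype.ext h)
  have fsurj : ∀ k ∈ K, ∃ s, f s = k := fun k hk => ⟨e ⟨k, hk⟩, by rw [fapp, e.symm_apply_apply]⟩
  have fmem : ∀ s, f s ∈ K := fun s => (e.symm s).2
  have ctr : ∀ p : G → Prop, Nat.card {k : K // p k} = Nat.card {s // p (f s)} := fun p => card_tr e p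
  have forder : ∀ s, orderOf (f s) = orderOf s := fun s => orderOf_injective f finj s
  -- the involution of K
  obtain ⟨s0, hs0⟩ : ∃ s0, f s0 = v ∨ f s0 = τ * v := by
    rcases L.hC v hcomm with h | h
    · obtain ⟨s, hs⟩ := fsurj v h
      exact ⟨s, Or.inl hs⟩
    · obtain ⟨s, hs⟩ := fsurj _ h
      exact ⟨s, Or.inr hs⟩
  have htv : τ * v * (τ * v) = 1 := by
    calc τ * v * (τ * v) = τ * (v * τ) * v := by group
      _ = (τ * τ) * (v * v) := by rw [hcomm]; group
      _ = 1 := by rw [htt, hvv, one_mul]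
  have hs01 : s0 ≠ 1 := by
    rintro rfl
    rw [map_one] at hs0
    rcases hs0 with h | h
    · exact hv1 h.symm
    · apply hvτ
      have := inv_eq_of_mul_eq_one_right h.symm
      rw [← this]
      exact (inv_eq_of_mul_eq_one_right htt)
  have hs00 : s0 * s0 = 1 := by
    apply finj
    rw [map_mul, map_one]
    rcases hs0 with h | h
    · rw [h, hvv]
    · rw [h, htv]
  have cτv : IsConj τ v := isConj_iff.2 ⟨y, hyτ⟩
  have cvt : IsConj v (τ * v) := isConj_iff.2 ⟨y, hyv⟩
  have hc0 : IsConj τ (f s0) := by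
    rcases hs0 with h | h
    · rw [h]; exact cτv
    · rw [h]; exact cτv.trans cvt
  have hc0' : IsConj τ (τ * f s0) := by
    rcases hs0 with h | h
    · rw [h]; exact cτv.trans cvt
    · rw [h, ← mul_assoc, htt, one_mul]; exact cτv
  have hUcomm : ∀ a ∈ U, ∀ b ∈ U, a * b = b * a := by
    intro a ha b hb
    haveI := hUc
    have : IsMulCommutative U := IsCyclic.isMulCommutative
    exact congrArg Subtype.val (mul_comm' (⟨a, ha⟩ : U) ⟨b, hb⟩)
  -- torus facts
  have tf : ∀ w' : Matrix.ProjectiveSpecialLinearGroup (Fin 2) F, f w' ∈ U → w' ≠ 1 →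
      (∀ s, s⁻¹ * w' * s ∈ Subgroup.zpowers w' → s⁻¹ * w' * s = w' ∨ s⁻¹ * w' * s = w'⁻¹) ∧
      2 * Nat.card {s : Matrix.ProjectiveSpecialLinearGroup (Fin 2) F // s⁻¹ * w' * s = w'} = q + 1 ∧
      2 * Nat.card {s : Matrix.ProjectiveSpecialLinearGroup (Fin 2) F // s⁻¹ * w' * s = w'⁻¹} = q + 1 ∧
      (∀ s, s⁻¹ * w' * s = w'⁻¹ → s * s = 1) := by
    intro w' hw' hw1
    have h3 : orderOf w' ∣ Nat.card U := by
      rw [← forder]; exact Subgroup.orderOf_dvd_natCard U hw'
    exact tor_facts (by omega) hodd hw1 (hUodd.of_dvd_nat h3)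
      (h3.trans ⟨4, by rw [← hq]; omega⟩)
  have hne : ∀ s, f s ≠ 1 → s ≠ 1 := fun s hs h => hs (by rw [h, map_one])
  have feq : ∀ a b, f a = f b ↔ a = b := fun a b => finj.eq_iff
  have D : Dat τ K ((PP F).map f) U q :=
    { toLoc := L
      PK := by
        rintro _ ⟨s, -, rfl⟩
        exact fmem s
      UK := hUK
      Pc := by
        rintro _ ⟨a, ha, rfl⟩ _ ⟨b, hb, rfl⟩
        obtain ⟨a, rfl⟩ := mem_PP.1 ha
        obtain ⟨b, rfl⟩ := mem_PP.1 hb
        rw [← map_mul, ← map_mul, uP_comm]
      Uc := hUcomm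
      cP := by
        rw [Nat.card_congr ((PP F).equivMapOfInjective f finj).symm.toEquiv, card_PP h2]
      cU := hUcard
      cKK := by
        rw [Nat.card_congr e.toEquiv, ClSL2Syl.card_PSL2 hodd, ← hq]
        have : 1 ≤ q ^ 2 := Nat.one_le_pow _ _ (by omega)
        obtain ⟨m, hm⟩ : ∃ m, q ^ 2 = m + 1 := ⟨q ^ 2 - 1, by omega⟩
        have h3 : q ^ 3 = q * q ^ 2 := by ring
        rw [h3, hm, Nat.add_sub_cancel]; ring
      qodd := hodd
      q3 := by omega
      Uodd := hUodd
      F1 := by
        rintro _ ⟨x, hx, rfl⟩ hx1 _ ⟨z, hz, rfl⟩ hz1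
        rw [ctr (fun k => k⁻¹ * f x * k = f z), ctr (fun k => k⁻¹ * f x * k = (f z)⁻¹)]
        simp only [← map_inv, ← map_mul, feq]
        exact F1 h2 hns hor hodd hx (hne x hx1) hz (hne z hz1)
      F1' := by
        rintro _ ⟨x, hx, rfl⟩ hx1 k hk
        obtain ⟨s, rfl⟩ := fsurj k hk
        obtain ⟨a, rfl⟩ := mem_PP.1 hx
        rw [← map_inv, ← map_mul, ← map_mul, ← map_inv, Ne, feq]
        refine no_inv h2 hns ?_ s
        rintro rfl
        exact hx1 (by rw [uP_zero, map_one])
      F2 := by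
        intro w hw hw1 k hk hkw
        obtain ⟨w', rfl⟩ := fsurj w (hUK hw)
        obtain ⟨s, rfl⟩ := fsurj k hk
        have h3 := (tf w' hw (hne _ hw1)).1 s
        have h4 : s⁻¹ * w' * s ∈ Subgroup.zpowers w' := by
          rw [← map_inv, ← map_mul, ← map_mul] at hkw
          have h5 : (⟨f (s⁻¹ * w' * s), hkw⟩ : U) ∈ Subgroup.zpowers (⟨f w', hw⟩ : U) := by
            haveI := hUc
            apply H23Nilp.mem_zpowers_of_orderOf_dvd
            rw [Subgroup.orderOf_mk, Subgroup.orderOf_mk, forder, forder]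
            have : s⁻¹ * w' * s = s⁻¹ * w' * s⁻¹⁻¹ := by rw [inv_inv]
            rw [this, ← MulAut.conj_apply, MulEquiv.orderOf_eq]
          obtain ⟨m, hm⟩ := h5
          refine ⟨m, ?_⟩
          apply finj
          have h6 := congrArg Subtype.val hm
          simpa using h6
        rcases h3 h4 with h | h
        · left; rw [← map_inv, ← map_mul, ← map_mul, h]
        · right; rw [← map_inv, ← map_mul, ← map_mul, h, map_inv]
      F2a := by
        intro w hw hw1
        obtain ⟨w', rfl⟩ := fsurj w (hUK hw)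
        rw [ctr (fun k => k⁻¹ * f w' * k = f w')]
        simp only [← map_inv, ← map_mul, feq]
        exact (tf w' hw (hne _ hw1)).2.1
      F2b := by
        intro w hw hw1
        obtain ⟨w', rfl⟩ := fsurj w (hUK hw)
        rw [ctr (fun k => k⁻¹ * f w' * k = (f w')⁻¹)]
        simp only [← map_inv, ← map_mul, feq]
        exact (tf w' hw (hne _ hw1)).2.2.1
      F2c := by
        intro w hw hw1 k hk hkw
        obtain ⟨w', rfl⟩ := fsurj w (hUK hw)
        obtain ⟨s, rfl⟩ := fsurj k hk
        rw [← map_inv, ← map_mul, ← map_mul, ← map_inv, feq] at hkw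
        rw [← map_mul, (tf w' hw (hne _ hw1)).2.2.2 s hkw, map_one]
      F3 := by
        have h3 : Nat.card {k : K // k * k = 1 ∧ k ≠ 1} =
            Nat.card {s : Matrix.ProjectiveSpecialLinearGroup (Fin 2) F // s * s = 1 ∧ s ≠ 1} := by
          refine Nat.card_congr (e.toEquiv.subtypeEquiv ?_)
          intro k
          change _ ↔ e k * e k = 1 ∧ e k ≠ 1
          simp only [ne_eq, ← map_mul, MulEquiv.map_eq_one_iff]
        rw [h3]
        exact F3 hodd (by omega) (by rw [← hq]; omega) hs01 hs00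
      F4 := by
        intro k hk hkk hk1
        obtain ⟨s, rfl⟩ := fsurj k hk
        have h3 : s * s = 1 := by apply finj; rw [map_mul, hkk, map_one]
        obtain ⟨g, hg⟩ := BinPslA.exists_conj_of_invol hs01 hs00 (hne s hk1) h3
        refine hc0.trans (isConj_iff.2 ⟨f g, ?_⟩)
        rw [← hg, map_mul, map_mul, map_inv]
      F4' := by
        intro k hk hkk
        by_cases hk1 : k = 1
        · rw [hk1, mul_one]
        obtain ⟨s, rfl⟩ := fsurj k hk
        have h3 : s * s = 1 := by apply finj; rw [map_mul, hkk, map_one]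
        obtain ⟨g, hg⟩ := BinPslA.exists_conj_of_invol hs01 hs00 (hne s hk1) h3
        refine hc0'.trans (isConj_iff.2 ⟨f g, ?_⟩)
        have h4 := L.cK _ (fmem g)
        rw [← hg, map_mul, map_mul, map_inv]
        calc f g * (τ * f s0) * (f g)⁻¹ = (f g * τ) * f s0 * (f g)⁻¹ := by group
          _ = τ * (f g * f s0 * (f g)⁻¹) := by rw [h4]; group }
  have Y : YD τ v y U :=
    { tt := htt
      vv := hvv
      t1 := ht1
      v1 := hv1
      vt := hvτ
      comm := hcomm
      Ut := hUτ
      Uv := hUv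
      Uc := hUcomm
      Uodd := hUodd
      yt := hyτ
      yv := hyv
      yU := by
        intro w
        refine ⟨hyU w, fun h => ?_⟩
        have h3 := hyU _ (hyU _ h)
        have h4 : y * (y * (y * w * y⁻¹) * y⁻¹) * y⁻¹ = (y * y * y) * w * (y * y * y)⁻¹ := by group
        rw [h4, hy3', one_mul, inv_one, mul_one] at h3
        exact h3
      ync := hync
      y3 := hy3' }
  exact core D Y hF

end Cfsg.Agent.Lib.GoldC95
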