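import Mathlib
import Cfsg.Agent.Lib.GoldB95
import Cfsg.Agent.Lib.InvAct
import Cfsg.Agent.Lib.SubgroupTools

/-!
Auxiliary lemmas for groups of Ree type (seat helper95).
-/

set_option autoImplicit false

namespace Cfsg.Agent.Lib.GoldD95

open Subgroup

theorem mem_zp_of_pow {C : Type*} [Group C] [Finite C] [IsCyclic C] {p : ℕ} (hp : p.Prime) {c x : C}
    (hc : orderOf c = p) (hx : x ^ p = 1) : x ∈ Subgroup.zpowers c := by
  classical
  have := Fintype.ofFinite C
  have h1 := IsCyclic.card_pow_eq_one_le (α := C) hp.pos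
  by_contra hne
  have h2 : insert x (Subgroup.zpowers c : Set C).toFinset ⊆ Finset.univ.filter (fun a : C => a ^ p = 1) := by
    intro y hy
    rw [Finset.mem_insert, Set.mem_toFinset] at hy
    rw [Finset.mem_filter]
    refine ⟨Finset.mem_univ _, ?_⟩
    rcases hy with rfl | ⟨k, rfl⟩
    · exact hx
    · show (c ^ k) ^ p = 1
      rw [← zpow_natCast, zpow_comm, zpow_natCast, ← hc, pow_orderOf_eq_one, one_zpow]
  have h3 := Finset.card_le_card h2
  rw [Finset.card_insert_of_notMem (by rw [Set.mem_toFinset]; exact hne), Set.toFinset_card,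
    ← Nat.card_eq_fintype_card] at h3
  have h4 : Nat.card (Subgroup.zpowers c : Set C) = p := (Nat.card_zpowers c).trans hc
  omega

/-- an elementary abelian `3`-group acting on a group of prime order has kernel of index at most `3` -/
theorem idx3 {G : Type*} [Group G] [Finite G] (P : Subgroup G) (hP3 : ∀ p ∈ P, p ^ 3 = 1) (w : G) {r : ℕ}
    (hr : r.Prime) (hw : orderOf w = r) (hn : ∀ p ∈ P, p * w * p⁻¹ ∈ Subgroup.zpowers w) :
    Nat.card P ≤ 3 * Nat.card (P ⊓ Subgroup.centralizer ({w} : Set G) : Subgroup G) := by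
  classical
  have : Fact r.Prime := ⟨hr⟩
  rw [Lib.InvAct.card_conj_orbit P w]
  apply Nat.mul_le_mul_right
  have hwr : w ^ r = 1 := by rw [← hw]; exact pow_orderOf_eq_one w
  have hsub : {v : G | ∃ k ∈ P, k * w * k⁻¹ = v} ⊆
      (((Polynomial.nthRootsFinset 3 (1 : ZMod r)).image (fun z => w ^ z.val) : Finset G) : Set G) := by
    rintro _ ⟨p, hp, rfl⟩
    have h1 := hn p hp
    rw [← mem_powers_iff_mem_zpowers] at h1
    obtain ⟨a, ha⟩ := h1
    have ha : w ^ a = p * w * p⁻¹ := ha
    rw [Finset.mem_coe, Finset.mem_image]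
    refine ⟨(a : ZMod r), ?_, ?_⟩
    · rw [Polynomial.mem_nthRootsFinset (by norm_num)]
      have h2 : ∀ b : ℕ, p * w ^ b * p⁻¹ = w ^ (a * b) := by
        intro b
        rw [pow_mul, ha, ← conj_pow]
      have h3 : w = w ^ (a * (a * a)) := by
        calc w = p ^ 3 * w * (p ^ 3)⁻¹ := by rw [hP3 p hp]; group
          _ = p * (p * (p * w * p⁻¹) * p⁻¹) * p⁻¹ := by rw [pow_succ, pow_two]; group
          _ = p * (p * w ^ a * p⁻¹) * p⁻¹ := by rw [ha]
          _ = w ^ (a * (a * a)) := by rw [h2, h2]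
      have h4 : w ^ (a * (a * a)) = w ^ 1 := by rw [← h3, pow_one]
      rw [pow_eq_pow_iff_modEq, hw] at h4
      have h5 := (ZMod.natCast_eq_natCast_iff _ _ _).2 h4
      push_cast at h5
      rw [← h5]; ring
    · show w ^ (a : ZMod r).val = p * w * p⁻¹
      rw [← ha, ZMod.val_natCast, ← hw, pow_mod_orderOf]
  calc Set.ncard {v : G | ∃ k ∈ P, k * w * k⁻¹ = v}
      ≤ Set.ncard (((Polynomial.nthRootsFinset 3 (1 : ZMod r)).image (fun z => w ^ z.val) : Finset G) : Set G) :=
        Set.ncard_le_ncard hsub (Finset.finite_toSet _)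
    _ = ((Polynomial.nthRootsFinset 3 (1 : ZMod r)).image (fun z => w ^ z.val)).card := Set.ncard_coe_finset _
    _ ≤ (Polynomial.nthRootsFinset 3 (1 : ZMod r)).card := Finset.card_image_le
    _ ≤ 3 := by
      rw [Polynomial.nthRootsFinset_def]
      exact (Multiset.toFinset_card_le _).trans (Polynomial.card_nthRoots 3 1)

/-- the four-group `{1, i, j, ij}` -/
def four {G : Type*} [Group G] (i j : G) (hi : i * i = 1) (hj : j * j = 1) (hji : j * i = i * j) : Subgroup G where
  carrier := {x | x = 1 ∨ x = i ∨ x = j ∨ x = i * j}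
  one_mem' := Or.inl rfl
  mul_mem' := by
    have e1 : i * (i * j) = j := by rw [← mul_assoc, hi, one_mul]
    have e2 : j * (i * j) = i := by rw [← hji, ← mul_assoc, hj, one_mul]
    have e3 : (i * j) * i = j := by rw [← hji, mul_assoc, hi, mul_one]
    have e4 : (i * j) * j = i := by rw [mul_assoc, hj, mul_one]
    have e5 : (i * j) * (i * j) = 1 := by rw [← mul_assoc, e3, hj]
    rintro a b (rfl | rfl | rfl | rfl) (rfl | rfl | rfl | rfl) <;>
      simp only [Set.mem_ofPred_eq, one_mul, mul_one, hi, hj, hji, e1, e2, e3, e4, e5, true_or, or_true]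
  inv_mem' := by
    have hi' : i⁻¹ = i := inv_eq_of_mul_eq_one_left hi
    have hj' : j⁻¹ = j := inv_eq_of_mul_eq_one_left hj
    rintro a (rfl | rfl | rfl | rfl)
    · simp
    · simp [hi']
    · simp [hj']
    · simp [hi', hj', hji]

theorem mem_four {G : Type*} [Group G] {i j : G} (hi : i * i = 1) (hj : j * j = 1) (hji : j * i = i * j) {x : G} :
    x ∈ four i j hi hj hji ↔ x = 1 ∨ x = i ∨ x = j ∨ x = i * j := Iff.rfl

theorem ij_facts {G : Type*} [Group G] {i j : G} (hi : i * i = 1) (hj : j * j = 1) (hi1 : i ≠ 1) (hj1 : j ≠ 1)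
    (hij : i ≠ j) : i * j ≠ 1 ∧ i ≠ i * j ∧ j ≠ i * j := by
  refine ⟨fun h => hij ?_, fun h => hj1 (by simpa using h), fun h => hi1 (by simpa using h)⟩
  have : j⁻¹ = j := inv_eq_of_mul_eq_one_left hj
  rw [← this]; exact eq_inv_of_mul_eq_one_left h

theorem card_four {G : Type*} [Group G] {i j : G} (hi : i * i = 1) (hj : j * j = 1) (hji : j * i = i * j)
    (hi1 : i ≠ 1) (hj1 : j ≠ 1) (hij : i ≠ j) : Nat.card (four i j hi hj hji) = 4 := by
  classical
  obtain ⟨h1, h2, h3⟩ := ij_facts hi hj hi1 hj1 hij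
  have heq : ((four i j hi hj hji : Subgroup G) : Set G) = (({1, i, j, i * j} : Finset G) : Set G) := by
    ext x
    rw [SetLike.mem_coe, mem_four]
    simp
  calc Nat.card (four i j hi hj hji) = ((four i j hi hj hji : Subgroup G) : Set G).ncard := rfl
    _ = 4 := by
      rw [heq, Set.ncard_coe_finset, Finset.card_insert_of_notMem, Finset.card_insert_of_notMem,
        Finset.card_insert_of_notMem, Finset.card_singleton]
      · simpa using h3
      · simpa using ⟨hij, hj1⟩
      · simpa using ⟨hi1.symm, hj1.symm, h1.symm⟩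

/-- wrapper for the classification of groups with a self-centralizing four-group -/
theorem sixty {X : Type*} [Group X] [Finite X] (i j y : X) (hi : i * i = 1) (hj : j * j = 1) (hi1 : i ≠ 1)
    (hj1 : j ≠ 1) (hij : i ≠ j) (hji : j * i = i * j) (hyi : y * i * y⁻¹ = i * j) (hyj : y * j * y⁻¹ = i)
    (hy3 : y ^ 3 = 1) (hC : ∀ c, c * j = j * c → c = 1 ∨ c = i ∨ c = j ∨ c = i * j) :
    Nat.card X = 12 ∨ Nat.card X = 60 := by
  have : Fact (Nat.Prime 3) := ⟨Nat.prime_three⟩
  set D := four i j hi hj hji with hD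
  have hcard : Nat.card D = 4 := card_four hi hj hji hi1 hj1 hij
  have hyD : ∀ x ∈ D, y * x * y⁻¹ ∈ D := by
    intro x hx
    rw [hD, mem_four] at hx ⊢
    rcases hx with rfl | rfl | rfl | rfl
    · left; group
    · right; right; right; exact hyi
    · right; left; exact hyj
    · right; right; left
      calc y * (i * j) * y⁻¹ = (y * i * y⁻¹) * (y * j * y⁻¹) := by group
        _ = i * j * i := by rw [hyi, hyj]
        _ = j * i * i := by rw [hji]
        _ = j := by rw [mul_assoc, hi, mul_one]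
  have hDsq : ∀ c ∈ D, c ^ 2 = 1 := by
    intro c hc
    rw [hD, mem_four] at hc
    rw [pow_two]
    rcases hc with rfl | rfl | rfl | rfl
    · simp
    · exact hi
    · exact hj
    · calc i * j * (i * j) = i * (j * i) * j := by group
        _ = i * (i * j) * j := by rw [hji]
        _ = (i * i) * (j * j) := by group
        _ = 1 := by rw [hi, hj, one_mul]
  have hDcomm : ∀ a ∈ D, ∀ b ∈ D, a * b = b * a := by
    intro a ha b hb
    have h1 := hDsq _ (mul_mem ha hb)
    have ha' := hDsq a ha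
    have hb' := hDsq b hb
    rw [pow_two] at h1 ha' hb'
    calc a * b = a * (a * b * (a * b)) * b := by rw [h1]; group
      _ = (a * a) * (b * a) * (b * b) := by group
      _ = b * a := by rw [ha', hb']; group
  have hCi : ∀ c, c * i = i * c → c ∈ D := by
    intro c hc
    have h1 : (y⁻¹ * c * y) * j = j * (y⁻¹ * c * y) := by
      calc (y⁻¹ * c * y) * j = y⁻¹ * (c * (y * j * y⁻¹)) * y := by group
        _ = y⁻¹ * ((y * j * y⁻¹) * c) * y := by rw [hyj, hc]
        _ = j * (y⁻¹ * c * y) := by group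
    have h2 : y⁻¹ * c * y ∈ D := hC _ h1
    have h3 := hyD _ h2
    have h4 : y * (y⁻¹ * c * y) * y⁻¹ = c := by group
    rwa [h4] at h3
  have hCij : ∀ c, c * (i * j) = (i * j) * c → c ∈ D := by
    intro c hc
    have h1 : (y⁻¹ * c * y) * i = i * (y⁻¹ * c * y) := by
      calc (y⁻¹ * c * y) * i = y⁻¹ * (c * (y * i * y⁻¹)) * y := by group
        _ = y⁻¹ * ((y * i * y⁻¹) * c) * y := by rw [hyi, hc]
        _ = i * (y⁻¹ * c * y) := by group
    have h3 := hyD _ (hCi _ h1)
    have h4 : y * (y⁻¹ * c * y) * y⁻¹ = c := by group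
    rwa [h4] at h3
  have hCD : ∀ d ∈ D, d ≠ 1 → Subgroup.centralizer ({d} : Set X) = D := by
    intro d hd hd1
    apply le_antisymm
    · intro c hc
      rw [Subgroup.mem_centralizer_singleton_iff] at hc
      rw [hD, mem_four] at hd
      rcases hd with rfl | rfl | rfl | rfl
      · exact absurd rfl hd1
      · exact hCi c hc
      · exact hC c hc
      · exact hCij c hc
    · intro c hc
      rw [Subgroup.mem_centralizer_singleton_iff]
      exact hDcomm c hc d hd
  have hjD : j ∈ D := Or.inr (Or.inr (Or.inl rfl))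
  have hiD : i ∈ D := Or.inr (Or.inl rfl)
  have h1 := GoldB95.card_eq D hcard hDsq hCD y j hjD (by rw [hyj]; exact hiD) (by rw [hyj]; exact hij)
  have hy1 : y ≠ 1 := by rintro rfl; apply hij; rw [← hyj]; group
  have h3 : 3 ∣ Nat.card X := by
    rw [← orderOf_eq_prime hy3 hy1]; exact orderOf_dvd_natCard y
  have h4 : 4 ∣ Nat.card X := by rw [← hcard]; exact Subgroup.card_subgroup_dvd_card D
  have hpos : 0 < Nat.card X := Nat.card_pos
  rcases h1 with h1 | h1
  · left; omega
  · right; exact h1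

end Cfsg.Agent.Lib.GoldD95
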