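import Mathlib
import Cfsg.Agent.Lib.GoldD95c
import Cfsg.Agent.Lib.GoldD95d

/-!
Groups of Ree type: the case where `y` centralizes the torus (seat helper95).
-/

set_option autoImplicit false

namespace Cfsg.Agent.Lib.GoldD95

open Subgroup Cfsg.Agent.Lib.H53PSL2 Cfsg.Agent.Lib.GoldPSL95
open scoped Pointwise

theorem q_facts {n : ℕ} (hn : 1 ≤ n) : 3 ^ (2 * n + 1) % 8 = 3 ∧ (3 ^ (2 * n + 1) % 5 = 2 ∨ 3 ^ (2 * n + 1) % 5 = 3) ∧
    3 ^ (2 * n + 1) % 3 = 0 ∧ 27 ≤ 3 ^ (2 * n + 1) := by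
  have h1 : 3 ^ (2 * n + 1) = 9 ^ n * 3 := by rw [pow_succ, pow_mul]; norm_num
  rw [h1]
  have h8 : 9 ^ n % 8 = 1 := by rw [Nat.pow_mod]; norm_num
  have h5 : 9 ^ n % 5 = 1 ∨ 9 ^ n % 5 = 4 := by
    clear h1 h8 hn
    induction n with
    | zero => left; rfl
    | succ k ih => rw [pow_succ]; omega
  have h9 : 9 ≤ 9 ^ n := by
    calc 9 = 9 ^ 1 := by norm_num
      _ ≤ 9 ^ n := Nat.pow_le_pow_right (by norm_num) hn
  omega

variable {G : Type*} [Group G] [Finite G] {F : Type*} [Field F] [Fintype F] {n : ℕ}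

/-- structure of `C_G(U)` -/
theorem cardH {i j y : G} (hi : i * i = 1) (hj : j * j = 1)
    (hi1 : i ≠ 1) (hj1 : j ≠ 1) (hij : i ≠ j) (hji : j * i = i * j) (hyi : y * i * y⁻¹ = i * j) (hyj : y * j * y⁻¹ = i)
    (hy3 : y ^ 3 = 1) (m : ℕ) (hm : m % 2 = 1) (hm1 : 1 < m)
    (U : Subgroup G) (hU : ∀ g, g ∈ U ↔ (g * j = j * g ∧ g * i = i * g ∧ g ^ m = 1))
    (hUab : ∀ a ∈ U, ∀ b ∈ U, a * b = b * a) (hUm : Nat.card U = m)
    (hUw : ∀ w ∈ U, w ≠ 1 → ∀ c, c * j = j * c → c * w = w * c →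
      ∃ a, (a = 1 ∨ a = j ∨ a = i ∨ a = j * i) ∧ ∃ u ∈ U, c = a * u)
    (hyU : ∀ u ∈ U, y * u = u * y) :
    Nat.card (Subgroup.centralizer (U : Set G)) = 12 * m ∨ Nat.card (Subgroup.centralizer (U : Set G)) = 60 * m := by
  classical
  set H := Subgroup.centralizer (U : Set G) with hH
  have hmemH : ∀ {c : G}, c ∈ H ↔ ∀ u ∈ U, u * c = c * u := by
    intro c; rw [hH, Subgroup.mem_centralizer_iff]; rfl
  have hUH : U ≤ H := fun u hu => hmemH.2 fun v hv => hUab v hv u hu
  have hiH : i ∈ H := hmemH.2 fun u hu => ((hU u).1 hu).2.1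
  have hjH : j ∈ H := hmemH.2 fun u hu => ((hU u).1 hu).1
  have hyH : y ∈ H := hmemH.2 fun u hu => (hyU u hu).symm
  obtain ⟨w, hwU, hw1⟩ : ∃ w ∈ U, w ≠ 1 := by
    have : Nontrivial U := by
      rw [← Finite.one_lt_card_iff_nontrivial, hUm]; exact hm1
    obtain ⟨w, hw⟩ := exists_ne (1 : U)
    exact ⟨w, w.2, fun h => hw (Subtype.ext h)⟩
  -- squares
  have hsq1 : ∀ u ∈ U, u * u = 1 → u = 1 := by
    intro u hu huu
    have h1 := ((hU u).1 hu).2.2
    obtain ⟨k, hk⟩ : ∃ k, m = 2 * k + 1 := ⟨m / 2, by omega⟩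
    rw [hk, pow_succ, pow_mul, pow_two, huu, one_pow, one_mul] at h1
    exact h1
  set N := U.subgroupOf H with hN
  have hNn : N.Normal := by
    refine ⟨fun u hu g => ?_⟩
    rw [hN, Subgroup.mem_subgroupOf] at hu ⊢
    have := hmemH.1 g.2 u hu
    show (g : G) * u * (g : G)⁻¹ ∈ U
    rw [← this, mul_inv_cancel_right]; exact hu
  let π : H →* H ⧸ N := QuotientGroup.mk' N
  have hπ1 : ∀ x : H, π x = 1 ↔ (x : G) ∈ U := by
    intro x
    show (QuotientGroup.mk x : H ⧸ N) = 1 ↔ _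
    rw [QuotientGroup.eq_one_iff, hN, Subgroup.mem_subgroupOf]
  set I : H := ⟨i, hiH⟩ with hI
  set J : H := ⟨j, hjH⟩ with hJ
  set Y : H := ⟨y, hyH⟩ with hY
  have eI : I * I = 1 := Subtype.ext hi
  have eJ : J * J = 1 := Subtype.ext hj
  have eJI : J * I = I * J := Subtype.ext hji
  have hnoU : ∀ x : G, x * x = 1 → x ≠ 1 → x ∉ U := fun x hx hx1 hxU => hx1 (hsq1 x hxU hx)
  obtain ⟨f1, -, -⟩ := ij_facts hi hj hi1 hj1 hij
  have hijsq : (i * j) * (i * j) = 1 := by
    calc i * j * (i * j) = i * (j * i) * j := by group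
      _ = i * (i * j) * j := by rw [hji]
      _ = (i * i) * (j * j) := by group
      _ = 1 := by rw [hi, hj, one_mul]
  have hcardq : Nat.card (H ⧸ N) = 12 ∨ Nat.card (H ⧸ N) = 60 := by
    apply sixty (π I) (π J) (π Y)
    · rw [← map_mul, eI, map_one]
    · rw [← map_mul, eJ, map_one]
    · rw [Ne, hπ1]; exact hnoU i hi hi1
    · rw [Ne, hπ1]; exact hnoU j hj hj1
    · intro h
      have h1 : π (I * J) = 1 := by rw [map_mul, h, ← map_mul, eJ, map_one]
      rw [hπ1] at h1
      exact hnoU _ hijsq f1 h1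
    · rw [← map_mul, ← map_mul, eJI]
    · rw [← map_inv, ← map_mul, ← map_mul, ← map_mul]
      congr 1
      exact Subtype.ext hyi
    · rw [← map_inv, ← map_mul, ← map_mul]
      congr 1
      exact Subtype.ext hyj
    · rw [← map_pow]
      have : Y ^ 3 = 1 := Subtype.ext hy3
      rw [this, map_one]
    · intro c hc
      obtain ⟨c, rfl⟩ := QuotientGroup.mk'_surjective N c
      change π c * π J = π J * π c at hc
      have h1 : π (J⁻¹ * (c * J * c⁻¹)) = 1 := by
        rw [map_mul, map_mul, map_mul, map_inv, map_inv, hc]; group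
      rw [hπ1] at h1
      set u : G := ((J⁻¹ * (c * J * c⁻¹) : H) : G) with hu
      have hcj : (c : G) * j * (c : G)⁻¹ = j * u := by
        rw [hu]; simp only [Subgroup.coe_mul, Subgroup.coe_inv, hJ]; group
      have huj := ((hU u).1 h1).1
      have h2 : u * u = 1 := by
        have e1 : (j * u) * (j * u) = 1 := by
          rw [← hcj]
          calc (c : G) * j * (c : G)⁻¹ * ((c : G) * j * (c : G)⁻¹) = c * (j * j) * (c : G)⁻¹ := by group
            _ = 1 := by rw [hj]; group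
        calc u * u = (j * j) * (u * u) := by rw [hj, one_mul]
          _ = j * (j * u) * u := by group
          _ = j * (u * j) * u := by rw [huj]
          _ = (j * u) * (j * u) := by group
          _ = 1 := e1
      have h3 := hsq1 u h1 h2
      rw [h3, mul_one] at hcj
      have h4 : (c : G) * j = j * c := by
        calc (c : G) * j = ((c : G) * j * (c : G)⁻¹) * c := by group
          _ = j * c := by rw [hcj]
      obtain ⟨a, ha, v, hv, hcav⟩ := hUw w hwU hw1 c h4 (hmemH.1 c.2 w hwU).symm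
      have haH : a ∈ H := by
        rcases ha with rfl | rfl | rfl | rfl
        · exact one_mem _
        · exact hjH
        · exact hiH
        · exact mul_mem hjH hiH
      have h5 : π c = π ⟨a, haH⟩ := by
        have e2 : c = ⟨a, haH⟩ * ⟨v, hUH hv⟩ := Subtype.ext hcav
        rw [e2, map_mul, (hπ1 ⟨v, hUH hv⟩).2 hv, mul_one]
      change π c = 1 ∨ π c = π I ∨ π c = π J ∨ π c = π I * π J
      rw [h5]
      rcases ha with rfl | rfl | rfl | rfl
      · left; exact map_one π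
      · right; right; left; rfl
      · right; left; rfl
      · right; right; right
        rw [← map_mul]
        exact congrArg π (Subtype.ext hji)
  have hcN : Nat.card N = m := by rw [hN, Lib.SubgroupTools.card_subgroupOf_of_le hUH, hUm]
  have hcH : Nat.card H = Nat.card (H ⧸ N) * m := by
    rw [← hcN]; exact Subgroup.card_eq_card_quotient_mul_card_subgroup N
  rcases hcardq with h | h
  · left; rw [hcH, h]
  · right; rw [hcH, h]

theorem mem_of_pow_five {M U : Subgroup G} (hUM : U ≤ M) (hMab : ∀ a ∈ M, ∀ b ∈ M, a * b = b * a)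
    (h5 : Nat.card M ∣ 5 * Nat.card U) {r : ℕ} (hr5 : Nat.Coprime 5 r) {v : G} (hv : v ∈ M)
    (hvr : v ^ r = 1) : v ∈ U := by
  have hN : (U.subgroupOf M).Normal := by
    refine ⟨fun u hu g => ?_⟩
    have : g * u * g⁻¹ = u := by
      apply Subtype.ext
      show (g : G) * u * (g : G)⁻¹ = u
      rw [hMab g g.2 u u.2, mul_inv_cancel_right]
    rw [this]; exact hu
  have h1 := (U.subgroupOf M).card_mul_index
  rw [Lib.SubgroupTools.card_subgroupOf_of_le hUM] at h1
  have h2 : (U.subgroupOf M).index ∣ 5 := by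
    rw [← h1, mul_comm 5] at h5
    exact Nat.dvd_of_mul_dvd_mul_left Nat.card_pos h5
  have h3 : v ^ 5 ∈ U := by
    have h4 := Subgroup.pow_index_mem (U.subgroupOf M) ⟨v, hv⟩
    obtain ⟨k, hk⟩ := h2
    have h6 := pow_mem h4 k
    rw [← pow_mul, ← hk] at h6
    exact h6
  have h7 : Nat.Coprime 5 (orderOf v) := Nat.Coprime.coprime_dvd_right (orderOf_dvd_of_pow_eq_one hvr) hr5
  obtain ⟨k, hk⟩ := exists_pow_eq_self_of_coprime h7
  rw [← hk]
  exact pow_mem h3 k

set_option maxHeartbeats 800000 in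
/-- `y` does not centralize the torus `U` -/
theorem caseA (hn : 1 ≤ n) (hF : Fintype.card F = 3 ^ (2 * n + 1)) (hR : R G F) (hS : S3F G) {t : G} {K : Subgroup G}
    (h : KD F t K) {i j y : G} (hiK : i ∈ K) (hjK : j ∈ K) (hyK : y ∈ K) (hi : i * i = 1) (hj : j * j = 1)
    (hi1 : i ≠ 1) (hj1 : j ≠ 1) (hij : i ≠ j) (hji : j * i = i * j) (hyi : y * i * y⁻¹ = i * j) (hyj : y * j * y⁻¹ = i)
    (hy3 : y ^ 3 = 1)
    (U : Subgroup G) (hU : ∀ g, g ∈ U ↔ (g * j = j * g ∧ g * i = i * g ∧ g ^ ((3 ^ (2 * n + 1) + 1) / 4) = 1))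
    (hUc : IsCyclic U) (hU4 : 4 * Nat.card U = 3 ^ (2 * n + 1) + 1)
    (hUw : ∀ w ∈ U, w ≠ 1 → ∀ c, c * j = j * c → c * w = w * c →
      ∃ a, (a = 1 ∨ a = j ∨ a = i ∨ a = j * i) ∧ ∃ u ∈ U, c = a * u)
    (hyU : ∀ u ∈ U, y * u = u * y) : False := by
  classical
  have : Fact (Nat.Prime 3) := ⟨Nat.prime_three⟩
  obtain ⟨hq8, hq5, hq3, hq27⟩ := q_facts hn
  obtain ⟨htt, ht1, hti⟩ := inv_of_order_two h.1
  have hy1 : y ≠ 1 := by rintro rfl; apply hij; rw [← hyj]; group
  have hy3o : orderOf y = 3 := orderOf_eq_prime hy3 hy1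
  obtain ⟨h3a, h3b, h3c⟩ := h.cent3 hn hF hyK hy3o
  obtain ⟨M, hMy, hMn, hM6, hMt, hMcard, hMmem⟩ := loc3 hn hF hR hS h hyK hy3o
  have hfa := h.facts hn hF
  set q := 3 ^ (2 * n + 1) with hq
  obtain ⟨m, hm⟩ : ∃ m, (q + 1) / 4 = m := ⟨_, rfl⟩
  rw [hm] at hU
  have hm4 : 4 * m = q + 1 := by omega
  have hUm : Nat.card U = m := by omega
  have hm2 : m % 2 = 1 := by omega
  have hm1 : 1 < m := by omega
  have hUab : ∀ a ∈ U, ∀ b ∈ U, a * b = b * a := by
    intro a ha b hb
    have := hUc.commGroup.mul_comm (⟨a, ha⟩ : U) ⟨b, hb⟩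
    exact congrArg Subtype.val this
  have hMab : ∀ a ∈ M, ∀ b ∈ M, a * b = b * a := by
    intro a ha b hb
    have e1 := hMt _ (mul_mem ha hb)
    have e2 : t * (a * b) * t⁻¹ = (t * a * t⁻¹) * (t * b * t⁻¹) := by group
    rw [e2, hMt a ha, hMt b hb] at e1
    have e3 := congrArg (fun x => x⁻¹) e1
    simp only [mul_inv_rev, inv_inv] at e3
    exact e3.symm
  have hm6 : Nat.Coprime m 6 := by
    have h2 : Nat.Coprime m 2 := by
      rw [Nat.coprime_two_right]; exact Nat.odd_iff.2 hm2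
    have h3 : Nat.Coprime m 3 := by
      rw [Nat.coprime_comm, Nat.Prime.coprime_iff_not_dvd Nat.prime_three]
      intro h; omega
    exact Nat.Coprime.mul_right h2 h3
  have hUM : U ≤ M := by
    intro u hu
    apply hMmem u (hyU u hu).symm
    exact Nat.Coprime.coprime_dvd_left (orderOf_dvd_of_pow_eq_one ((hU u).1 hu).2.2) hm6
  have hcH := cardH hi hj hi1 hj1 hij hji hyi hyj hy3 m hm2 hm1 U hU hUab hUm hUw hyU
  have hMH : M ≤ Subgroup.centralizer (U : Set G) := by
    intro x hx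
    rw [Subgroup.mem_centralizer_iff]
    intro u hu
    exact hMab u (hUM hu) x hx
  have hM5 : Nat.card M ∣ 5 * Nat.card U := by
    have h1 : Nat.card M ∣ 12 * (5 * m) := by
      have h2 := Subgroup.card_dvd_of_le hMH
      rcases hcH with h | h
      · rw [h] at h2; exact h2.trans ⟨5, by ring⟩
      · rw [h] at h2; exact h2.trans ⟨1, by ring⟩
    rw [hUm]
    have h3 : Nat.Coprime (Nat.card M) 12 := by
      have : Nat.Coprime (Nat.card M) (6 * 2) := Nat.Coprime.mul_right hM6 (Nat.Coprime.coprime_dvd_right (by norm_num) hM6)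
      simpa using this
    exact h3.dvd_of_dvd_mul_left h1
  -- a prime divisor of m
  obtain ⟨r, hr, hrm⟩ := Nat.exists_prime_and_dvd (show m ≠ 1 by omega)
  have hr5 : Nat.Coprime 5 r := by
    rw [Nat.Prime.coprime_iff_not_dvd (by norm_num)]
    intro h5
    have := h5.trans hrm
    omega
  have : Fact r.Prime := ⟨hr⟩
  obtain ⟨w', hw'⟩ : ∃ w' : U, orderOf w' = r := exists_prime_orderOf_dvd_card' r (by rw [hUm]; exact hrm)
  obtain ⟨w, hwd⟩ : ∃ w : G, w = (w' : G) := ⟨_, rfl⟩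
  have hwU : w ∈ U := by rw [hwd]; exact w'.2
  have hwr : orderOf w = r := by rw [hwd, Subgroup.orderOf_coe, hw']
  have hw1 : w ≠ 1 := by
    rintro rfl
    rw [orderOf_one] at hwr; exact hr.one_lt.ne hwr
  have hcl : ∀ v ∈ M, v ^ r = 1 → v ∈ Subgroup.zpowers w := by
    intro v hv hvr
    have hvU := mem_of_pow_five hUM hMab hM5 hr5 hv hvr
    have h1 : (⟨v, hvU⟩ : U) ∈ Subgroup.zpowers w' := mem_zp_of_pow hr hw' (Subtype.ext hvr)
    obtain ⟨k, hk⟩ := h1
    refine ⟨k, ?_⟩
    have := congrArg Subtype.val hk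
    rw [hwd]
    exact this
  set P : Subgroup G := Subgroup.centralizer ({y} : Set G) ⊓ K with hP
  have hPn : ∀ p ∈ P, p * w * p⁻¹ ∈ Subgroup.zpowers w := by
    intro p hp
    apply hcl _ (hMn p (Subgroup.mem_centralizer_singleton_iff.1 hp.1) w (hUM hwU))
    rw [conj_pow, ← hwr, pow_orderOf_eq_one]; group
  have hidx := idx3 P h3b w hr hwr hPn
  rw [h3a] at hidx
  set Q : Subgroup G := P ⊓ Subgroup.centralizer ({w} : Set G) with hQ
  have hQ9 : 9 ≤ Nat.card Q := by omega
  have hUt : ∀ u ∈ U, u * t = t * u → u = 1 := by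
    intro u hu hut
    by_contra hu1
    obtain ⟨a, ha, v, hv, hav⟩ := hUw u hu hu1 t (h.comm hjK) hut.symm
    have haK : a ∈ K := by
      rcases ha with rfl | rfl | rfl | rfl
      · exact one_mem _
      · exact hjK
      · exact hiK
      · exact mul_mem hjK hiK
    have hva : v * a = a * v := by
      obtain ⟨e1, e2, -⟩ := (hU v).1 hv
      rcases ha with rfl | rfl | rfl | rfl
      · group
      · exact e1
      · exact e2
      · rw [← mul_assoc, e1, mul_assoc, e2, mul_assoc]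
    have haa : a * a = 1 := by
      rcases ha with rfl | rfl | rfl | rfl
      · group
      · exact hj
      · exact hi
      · calc j * i * (j * i) = j * (i * j) * i := by group
          _ = j * (j * i) * i := by rw [hji]
          _ = (j * j) * (i * i) := by group
          _ = 1 := by rw [hi, hj, one_mul]
    have hvv : v * v = 1 := by
      have e1 : (a * v) * (a * v) = 1 := by rw [← hav]; exact htt
      calc v * v = (a * a) * (v * v) := by rw [haa, one_mul]
        _ = a * (a * v) * v := by group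
        _ = a * (v * a) * v := by rw [hva]
        _ = (a * v) * (a * v) := by group
        _ = 1 := e1
    have hv1 : v = 1 := by
      have h1 := ((hU v).1 hv).2.2
      obtain ⟨k, hk⟩ : ∃ k, m = 2 * k + 1 := ⟨m / 2, by omega⟩
      rw [hk, pow_succ, pow_mul, pow_two, hvv, one_pow, one_mul] at h1
      exact h1
    rw [hv1, mul_one] at hav
    exact h.nt (hav ▸ haK)
  set X : Subgroup G := Subgroup.centralizer ({w} : Set G) ⊓ Subgroup.centralizer ({t} : Set G) with hX
  have hiX : i ∈ X := ⟨Subgroup.mem_centralizer_singleton_iff.2 ((hU w).1 hwU).2.1.symm,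
    Subgroup.mem_centralizer_singleton_iff.2 (h.comm hiK).symm⟩
  have hjX : j ∈ X := ⟨Subgroup.mem_centralizer_singleton_iff.2 ((hU w).1 hwU).1.symm,
    Subgroup.mem_centralizer_singleton_iff.2 (h.comm hjK).symm⟩
  have hyX : y ∈ X := ⟨Subgroup.mem_centralizer_singleton_iff.2 (hyU w hwU),
    Subgroup.mem_centralizer_singleton_iff.2 (h.comm hyK).symm⟩
  have hcX : Nat.card X = 12 ∨ Nat.card X = 60 := by
    apply sixty (⟨i, hiX⟩ : X) ⟨j, hjX⟩ ⟨y, hyX⟩ (Subtype.ext hi) (Subtype.ext hj)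
      (fun h => hi1 (congrArg Subtype.val h)) (fun h => hj1 (congrArg Subtype.val h))
      (fun h => hij (congrArg Subtype.val h)) (Subtype.ext hji) (Subtype.ext hyi) (Subtype.ext hyj) (Subtype.ext hy3)
    rintro ⟨c, hc⟩ hcj
    have hcj' : c * j = j * c := congrArg Subtype.val hcj
    obtain ⟨a, ha, u, hu, hau⟩ := hUw w hwU hw1 c hcj' (Subgroup.mem_centralizer_singleton_iff.1 hc.1)
    have haK : a ∈ K := by
      rcases ha with rfl | rfl | rfl | rfl
      · exact one_mem _
      · exact hjK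
      · exact hiK
      · exact mul_mem hjK hiK
    have hct : c * t = t * c := Subgroup.mem_centralizer_singleton_iff.1 hc.2
    have hut : u * t = t * u := by
      have e1 : a * (u * t) = a * (t * u) := by
        rw [← mul_assoc, ← hau, hct, hau, ← mul_assoc, h.comm haK, mul_assoc]
      exact mul_left_cancel e1
    have hu1 := hUt u hu hut
    rw [hu1, mul_one] at hau
    rcases ha with ha | ha | ha | ha
    · left; exact Subtype.ext (hau.trans ha)
    · right; right; left; exact Subtype.ext (hau.trans ha)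
    · right; left; exact Subtype.ext (hau.trans ha)
    · right; right; right; exact Subtype.ext ((hau.trans ha).trans hji)
  have hQX : Q ≤ X := by
    intro p hp
    exact ⟨hp.2, Subgroup.mem_centralizer_singleton_iff.2 (h.comm hp.1.2).symm⟩
  set Q2 : Subgroup G := Q.map (MulAut.conj i).toMonoidHom with hQ2
  have hQ2X : Q2 ≤ X := by
    rintro _ ⟨p, hp, rfl⟩
    exact mul_mem (mul_mem hiX (hQX hp)) (inv_mem hiX)
  have hQ2c : Nat.card Q2 = Nat.card Q := Subgroup.card_map_of_injective (MulAut.conj i).injective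
  have hdis : Q ⊓ Q2 = ⊥ := by
    rw [eq_bot_iff]
    rintro _ ⟨hp, p, hp', rfl⟩
    rw [Subgroup.mem_bot]
    by_contra hne
    have hp1 : p ≠ 1 := by rintro rfl; exact hne (map_one _)
    have hpK : p ∈ K := hp'.1.2
    have hp3 : orderOf p = 3 := orderOf_eq_prime (h3b p hp'.1) hp1
    apply hfa.noinv ⟨p, hpK⟩ ⟨i, hiK⟩ (by rw [← hp3]; exact Subgroup.orderOf_mk p hpK)
      (by rw [Subgroup.orderOf_mk]; exact order_two_of hi hi1)
    apply Subtype.ext
    exact h3c _ hp.1 p hp'.1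
  have hmul := Lib.SubgroupTools.card_mul_set Q Q2
  rw [hdis, Subgroup.card_bot, mul_one, hQ2c] at hmul
  have hle : Nat.card ((Q : Set G) * (Q2 : Set G) : Set G) ≤ Nat.card X := by
    have hsub : ((Q : Set G) * (Q2 : Set G) : Set G) ⊆ (X : Set G) := by
      rintro _ ⟨a, ha, b, hb, rfl⟩
      exact mul_mem (hQX ha) (hQ2X hb)
    exact Set.ncard_le_ncard hsub (Set.toFinite _)
  rw [hmul] at hle
  have h81 : 9 * 9 ≤ Nat.card Q * Nat.card Q := Nat.mul_le_mul hQ9 hQ9
  omega

end Cfsg.Agent.Lib.GoldD95
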