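import Cfsg.Agent.Lib.NilMain
import Cfsg.Agent.Lib.ClosedZJ
import Cfsg.Agent.Lib.ZStarPow
import Cfsg.Agent.Lib.NilWeak

/-! A characteristic self-centralizing functor controlling `p`-nilpotence (`p` odd). (helper51) -/

set_option autoImplicit false

namespace Cfsg.Agent.Lib.GoodChar

open Cfsg.Agent.Lib.CFSylow Cfsg.Agent.Lib.CFFusion Cfsg.Agent.Lib.CFControl
  Cfsg.Agent.Lib.CFLocal Cfsg.Agent.Lib.CFCore Cfsg.Agent.Lib.CFSection Cfsg.Agent.Lib.CFMin
  Cfsg.Agent.Lib.CFMain Cfsg.Agent.Lib.CFRed Cfsg.Agent.Lib.CFStmt Cfsg.Agent.Lib.ClosedCF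
  Cfsg.Agent.Lib.ClosedPS Cfsg.Agent.Lib.ClosedWF Cfsg.Agent.Lib.ClsStab Cfsg.Agent.Lib.NilCtrl
  Cfsg.Agent.Lib.ClosedZJ Cfsg.Agent.Lib.NilMain
open Subgroup

universe u

section cls
variable {p : ℕ} [hp : Fact p.Prime]

theorem coprime_relIndex_of_pow {X : Type u} [Group X] [Finite X] {Q K : Subgroup X} [Q.Normal] {m : ℕ}
    (hm : m.Coprime p) (h : ∀ x ∈ K, x ^ m ∈ Q) : (Q.relIndex K).Coprime p := by
  rw [Nat.coprime_comm, Nat.Prime.coprime_iff_not_dvd hp.out]
  intro hd
  have hd' : p ∣ Nat.card (K ⧸ Q.subgroupOf K) := hd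
  obtain ⟨x, hx⟩ := exists_prime_orderOf_dvd_card' (G := K ⧸ Q.subgroupOf K) p hd'
  obtain ⟨y, rfl⟩ := QuotientGroup.mk_surjective x
  have h1 : ((y : K) : K ⧸ Q.subgroupOf K) ^ m = 1 := by
    have h2 : ((y ^ m : K) : K ⧸ Q.subgroupOf K) = 1 := by
      rw [QuotientGroup.eq_one_iff]
      exact h _ y.2
    exact h2
  have h2 := orderOf_dvd_of_pow_eq_one h1
  rw [hx] at h2
  have h3 := Nat.dvd_gcd h2 (dvd_refl p)
  rw [Nat.Coprime.gcd_eq_one hm] at h3
  exact hp.out.one_lt.ne' (Nat.dvd_one.1 h3)

theorem cls_subgroup {X : Type u} [Group X] [Finite X] (h : Cls p X) (H : Subgroup X) : Cls p ↥H := by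
  obtain ⟨Q, K, hQn, hKn, hQK, hQ, hab, hrel, k, hk⟩ := h
  refine ⟨Q.subgroupOf H, K.subgroupOf H, inferInstance, inferInstance,
    fun x hx => hQK hx, hQ.comap_of_injective H.subtype H.subtype_injective, ?_, ?_, ?_⟩
  · rw [commutator_le]
    intro a ha b hb
    exact hab (commutator_mem_commutator ha hb)
  · refine coprime_relIndex_of_pow hrel ?_
    intro x hx
    exact pow_relIndex_mem (Q := Q) (K := K) hx
  · have h1 : (K.subgroupOf H).index ∣ p ^ k := by
      rw [← hk]; exact K.relIndex_dvd_index_of_normal H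
    obtain ⟨j, _, hj⟩ := (Nat.dvd_prime_pow hp.out).mp h1
    exact ⟨j, hj⟩

theorem cls_of_surjective {X Y : Type u} [Group X] [Finite X] [Group Y] [Finite Y] (h : Cls p X) (f : X →* Y)
    (hf : Function.Surjective f) : Cls p Y := by
  obtain ⟨Q, K, hQn, hKn, hQK, hQ, hab, hrel, k, hk⟩ := h
  have hQn' : (Q.map f).Normal := Normal.map inferInstance f hf
  refine ⟨Q.map f, K.map f, hQn', Normal.map inferInstance f hf,
    map_mono hQK, hQ.map f, ?_, ?_, ?_⟩
  · rw [← map_commutator]; exact map_mono hab
  · refine coprime_relIndex_of_pow hrel ?_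
    rintro _ ⟨x, hx, rfl⟩
    exact ⟨_, pow_relIndex_mem (Q := Q) (K := K) hx, map_pow _ _ _⟩
  · have h1 : (K.map f).index ∣ p ^ k := by
      rw [← hk]; exact K.index_map_dvd hf
    obtain ⟨j, _, hj⟩ := (Nat.dvd_prime_pow hp.out).mp h1
    exact ⟨j, hj⟩

/-- a group of the class with trivial `p'`-core is constrained -/
theorem cls_constrained {X : Type u} [Group X] [Finite X] (h : Cls p X) (hO : Cfsg.pPrimeCore p X = ⊥) :
    cz (Cfsg.pCore p X) ≤ Cfsg.pCore p X := by
  haveI hQn' : (Cfsg.pCore p X).Normal := pCore_normal p X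
  apply constrained_of_nil_quotient hO
  obtain ⟨Q, K, hQn, hKn, hQK, hQ, hab, hrel, k, hk⟩ := h
  set π := QuotientGroup.mk' (Cfsg.pCore p X) with hπ
  have hQc : Q ≤ Cfsg.pCore p X := le_pCore hQn hQ
  have hKn' : (K.map π).Normal := Normal.map inferInstance π (QuotientGroup.mk'_surjective _)
  -- K.map π is a p'-group
  have h1 : ¬ p ∣ Nat.card (K.map π) := by
    have h2 : ((⊥ : Subgroup (X ⧸ Cfsg.pCore p X)).relIndex (K.map π)).Coprime p := by
      refine coprime_relIndex_of_pow hrel ?_
      rintro _ ⟨x, hx, rfl⟩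
      rw [mem_bot, ← map_pow, hπ, QuotientGroup.mk'_apply, QuotientGroup.eq_one_iff]
      exact hQc (pow_relIndex_mem (Q := Q) (K := K) hx)
    rw [relIndex_bot_left] at h2
    rw [Nat.coprime_comm, Nat.Prime.coprime_iff_not_dvd hp.out] at h2
    exact h2
  apply PNilp.HasNormalPComplement.of_quotient (K.map π) h1
  apply PNilp.hasNormalPComplement_of_isPGroup
  have h3 : (K.map π).index ∣ p ^ k := by
    rw [← hk]; exact K.index_map_dvd (QuotientGroup.mk'_surjective _)
  obtain ⟨j, _, hj⟩ := (Nat.dvd_prime_pow hp.out).mp h3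
  exact IsPGroup.of_card (n := j) hj

end cls

/-- `K` is good in `Q`. -/
def Good (p : ℕ) (Q : Type u) [Group Q] (K : Subgroup Q) : Prop :=
  K.Characteristic ∧ centralizer (K : Set Q) ≤ K ∧
    ∀ (X : Type u) [Group X] [Finite X], Cls p X → Cfsg.pPrimeCore p X = ⊥ →
      ∀ f : Q →* X, Function.Injective f → SylIn p f.range ⊤ → (K.map f).Normal

/-- two embeddings with the same range -/
theorem map_eq_of_range_eq {Q X : Type u} [Group Q] [Group X] {K : Subgroup Q} (hK : K.Characteristic)
    {f f' : Q →* X} (hf : Function.Injective f) (hf' : Function.Injective f') (h : f.range = f'.range) :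
    K.map f = K.map f' := by
  let e : Q ≃* Q := (MonoidHom.ofInjective hf).trans ((MulEquiv.subgroupCongr h).trans (MonoidHom.ofInjective hf').symm)
  have h1 : ∀ q, f' (e q) = f q := by
    intro q
    have h2 : (MonoidHom.ofInjective hf') (e q) = (MulEquiv.subgroupCongr h) ((MonoidHom.ofInjective hf) q) := by
      show (MonoidHom.ofInjective hf') ((MonoidHom.ofInjective hf').symm _) = _
      rw [MulEquiv.apply_symm_apply]
      rfl
    exact congrArg Subtype.val h2
  have h2 : K.map e.toMonoidHom = K := characteristic_iff_map_eq.1 hK e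
  have h3 : f = f'.comp e.toMonoidHom := by
    ext q; exact (h1 q).symm
  conv_lhs => rw [h3, ← map_map, h2]

section ind
variable {p : ℕ} [hp : Fact p.Prime]

/-- the restricted hom `T → C`. -/
def resC {Q X : Type u} [Group Q] [Group X] (Z : Subgroup Q) (Z' : Subgroup X) (h : Q →* X) (hZ : Z.map h = Z') :
    ↥(centralizer (Z : Set Q)) →* ↥(centralizer (Z' : Set X)) :=
  (h.comp (centralizer (Z : Set Q)).subtype).codRestrict (centralizer (Z' : Set X)) (by
    rintro ⟨t, ht⟩
    rw [mem_centralizer_iff] at ht ⊢
    intro z hz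
    have hz' : z ∈ Z' := hz
    rw [← hZ] at hz'
    obtain ⟨w, hw, rfl⟩ := hz'
    show h w * h t = h t * h w
    rw [← map_mul, ← map_mul, ht w hw])

theorem exists_good (hp2 : p ≠ 2) : ∀ (n : ℕ) (Q : Type u) [Group Q] [Finite Q], Nat.card Q = n → IsPGroup p Q →
    ∃ K : Subgroup Q, Good p Q K := by
  intro n
  induction n using Nat.strong_induction_on with
  | _ n ih =>
    intro Q _ _ hn hQ
    by_cases hnt : Nontrivial Q
    swap
    · rw [not_nontrivial_iff_subsingleton] at hnt
      refine ⟨⊤, topCharacteristic, le_top, ?_⟩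
      intro X _ _ _ _ f _ _
      have : (⊤ : Subgroup Q).map f = ⊥ := by
        rw [Subgroup.map_eq_bot_iff]
        intro x _
        rw [Subsingleton.elim x 1]; exact one_mem _
      rw [this]; infer_instance
    · set Z : Subgroup Q := Wab Q with hZd
      have hZch : Z.Characteristic := by
        rw [characteristic_iff_map_eq]
        intro φ
        exact isChar_Wab.2 Q Q hQ φ
      have hZne : Z ≠ ⊥ := isChar_Wab.1 Q hQ hnt
      set T := centralizer (Z : Set Q) with hTd
      have hZT : Z ≤ T := by
        -- `Z(J)` is abelian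
        have h1 := induced_Wab (G := Q) ⊤
        intro z hz
        rw [hTd, mem_centralizer_iff]
        intro w hw
        have h2 : ∀ y ∈ Z, y ∈ Cfsg.centerThompsonAOf (⊤ : Subgroup Q) := by
          intro y hy
          rw [← h1]
          have h3 := isChar_Wab.2 Q ↥(⊤ : Subgroup Q) hQ (topEquiv (G := Q)).symm
          have h4 : (Wab Q).map (topEquiv (G := Q)).symm.toMonoidHom = Wab ↥(⊤ : Subgroup Q) := h3
          show y ∈ (Wab ↥(⊤ : Subgroup Q)).map (⊤ : Subgroup Q).subtype
          rw [← h4, map_map]
          exact ⟨y, hy, rfl⟩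
        have h5 := h2 z hz
        have h6 := h2 w hw
        have h7 := mem_centralizer_iff.1 h5.2 w h6.1
        exact h7
      let Z1 : Subgroup ↥T := Z.subgroupOf T
      have hTch : T.Characteristic := inferInstance
      haveI hZn : Z.Normal := inferInstance
      have hcard : Nat.card (↥T ⧸ Z1) < n := by
        have h1 := Z1.card_eq_card_quotient_mul_card_subgroup
        have h2 : 1 < Nat.card Z1 := by
          have : Nat.card Z1 = Nat.card Z := Nat.card_congr (subgroupOfEquivOfLe hZT).toEquiv
          rw [this, Finite.one_lt_card_iff_nontrivial]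
          exact (nontrivial_iff_ne_bot Z).2 hZne
        have h3 : 0 < Nat.card (↥T ⧸ Z1) := Nat.card_pos
        have h4 : Nat.card ↥T ≤ n := by rw [← hn]; exact Subgroup.card_le_card_group T
        nlinarith
      obtain ⟨K1, hK1ch, hK1c, hK1⟩ := ih _ hcard (↥T ⧸ Z1) rfl ((hQ.to_subgroup T).to_quotient Z1)
      set K : Subgroup Q := (K1.comap (QuotientGroup.mk' Z1)).map T.subtype with hKd
      have hmemK : ∀ (t : Q) (ht : t ∈ T), t ∈ K ↔ QuotientGroup.mk' Z1 ⟨t, ht⟩ ∈ K1 := by
        intro t ht
        constructor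
        · rintro ⟨y, hy, hyt⟩
          have : y = ⟨t, ht⟩ := Subtype.ext hyt
          rw [← this]; exact hy
        · intro h
          exact ⟨⟨t, ht⟩, h, rfl⟩
      have hKT : K ≤ T := map_subtype_le _
      have hZK : Z ≤ K := by
        intro z hz
        rw [hmemK z (hZT hz)]
        have : QuotientGroup.mk' Z1 ⟨z, hZT hz⟩ = 1 := by
          rw [QuotientGroup.mk'_apply, QuotientGroup.eq_one_iff]; exact hz
        rw [this]; exact one_mem _
      refine ⟨K, ?_, ?_, ?_⟩
      · -- characteristic
        rw [characteristic_iff_map_le]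
        intro φ
        rintro _ ⟨t, ht, rfl⟩
        have ht : t ∈ K := ht
        have htT := hKT ht
        have hφT : ∀ t ∈ T, φ t ∈ T := fun t ht => by
          have := characteristic_iff_map_eq.1 hTch φ
          rw [← this]; exact ⟨t, ht, rfl⟩
        have hφT' : ∀ t ∈ T, φ.symm t ∈ T := fun t ht => by
          have := characteristic_iff_map_eq.1 hTch φ.symm
          rw [← this]; exact ⟨t, ht, rfl⟩
        let ψ : ↥T ≃* ↥T :=
          { toFun := fun t => ⟨φ t, hφT t t.2⟩
            invFun := fun t => ⟨φ.symm t, hφT' t t.2⟩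
            left_inv := fun t => Subtype.ext (φ.symm_apply_apply _)
            right_inv := fun t => Subtype.ext (φ.apply_symm_apply _)
            map_mul' := fun a b => Subtype.ext (map_mul φ _ _) }
        have hψ : Z1.map (ψ : ↥T →* ↥T) = Z1 := by
          ext y
          constructor
          · rintro ⟨w, hw, rfl⟩
            have h1 : (w : Q) ∈ Z := hw
            have h2 := characteristic_iff_map_eq.1 hZch φ
            show φ (w : Q) ∈ Z
            rw [← h2]; exact ⟨_, h1, rfl⟩
          · intro hy
            have h1 : (y : Q) ∈ Z := hy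
            have h2 := characteristic_iff_map_eq.1 hZch φ
            rw [← h2] at h1
            obtain ⟨w, hw, hwy⟩ := h1
            refine ⟨⟨w, hZT hw⟩, hw, Subtype.ext hwy⟩
        let ψ1 : (↥T ⧸ Z1) ≃* (↥T ⧸ Z1) := QuotientGroup.congr Z1 Z1 ψ hψ
        have h1 := characteristic_iff_map_eq.1 hK1ch ψ1
        show φ t ∈ K
        rw [hmemK _ (hφT t htT)]
        rw [hmemK _ htT] at ht
        rw [← h1]
        exact ⟨_, ht, rfl⟩
      · -- centralizer
        intro c hc
        have hcT : c ∈ T := by
          rw [hTd]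
          exact centralizer_le hZK hc
        rw [hmemK c hcT]
        apply hK1c
        rw [mem_centralizer_iff]
        intro y hy
        obtain ⟨t, rfl⟩ := QuotientGroup.mk'_surjective Z1 y
        have ht : (t : Q) ∈ K := (hmemK t t.2).2 hy
        rw [← map_mul, ← map_mul]
        congr 1
        exact Subtype.ext (mem_centralizer_iff.1 hc _ ht)
      · intro X _ _ hX hO f hf hS
        have hXc := cls_constrained hX hO
        -- the image of Z
        have hZimg : ∀ h : Q →* X, Function.Injective h → Z.map h = Cfsg.inducedFunctor Wab h.range := by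
          intro h hh
          have h1 := isChar_Wab.2 Q ↥h.range hQ (MonoidHom.ofInjective hh)
          show (Wab Q).map h = (Wab ↥h.range).map h.range.subtype
          rw [← h1, map_map]
          congr 1
        have hnorm : ∀ h : Q →* X, Function.Injective h → SylIn p h.range ⊤ → (Z.map h).Normal := by
          intro h hh hSh
          rw [hZimg h hh]
          exact IsZJ.normal (Or.inl rfl) hp2 hXc (fun V _ hV => hX.stable hp2 V hV) hSh
            (ClosedIn.self _ _)
        haveI hZ'n : (Z.map f).Normal := hnorm f hf hS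
        set Z' := Z.map f with hZ'd
        set C := centralizer (Z' : Set X) with hCd
        haveI hCn : C.Normal := inferInstance
        have hZ'C : Z' ≤ C := by
          rintro _ ⟨z, hz, rfl⟩
          rw [hCd, mem_centralizer_iff]
          rintro _ ⟨w, hw, rfl⟩
          rw [← map_mul, ← map_mul]
          congr 1
          exact (mem_centralizer_iff.1 (hZT hz) w hw)
        let Z1' : Subgroup ↥C := Z'.subgroupOf C
        haveI : Z1'.Normal := inferInstance
        -- X1
        have hX1 : Cls p (↥C ⧸ Z1') := cls_of_surjective (cls_subgroup hX C) _ (QuotientGroup.mk'_surjective Z1')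
        have hOC : Cfsg.pPrimeCore p ↥C = ⊥ := by
          have h1 : ((Cfsg.pPrimeCore p ↥C).map C.subtype).Normal := by
            haveI : (Cfsg.pPrimeCore p ↥C).Characteristic := Cores.pPrimeCore_characteristic p ↥C
            exact ConjAct.normal_of_characteristic_of_normal
          have h2 : (Cfsg.pPrimeCore p ↥C).map C.subtype ≤ Cfsg.pPrimeCore p X := by
            refine le_pPrimeCore h1 ?_
            rw [Subgroup.card_map_of_injective C.subtype_injective]
            exact Cores.coprime_card_pPrimeCore p ↥C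
          rw [hO, le_bot_iff, Subgroup.map_eq_bot_iff, Subgroup.ker_subtype, le_bot_iff] at h2
          exact h2
        have hO1 : Cfsg.pPrimeCore p (↥C ⧸ Z1') = ⊥ := by
          refine ZStarPow.pPrimeCore_quotient_central hOC Z1' ?_ ?_
          · intro z hz
            rw [mem_center_iff]
            intro c
            apply Subtype.ext
            exact (mem_centralizer_iff.1 c.2 z.1 hz).symm
          · have : IsPGroup p Z' := (hQ.to_subgroup Z).map f
            exact this.comap_of_injective C.subtype C.subtype_injective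
        -- the induced embeddings
        have hemb : ∀ (h : Q →* X) (hh : Function.Injective h) (hZh : Z.map h = Z'),
            Z1 ≤ Z1'.comap (resC Z Z' h hZh) := by
          intro h hh hZh z hz
          show h z ∈ Z'
          rw [← hZh]; exact ⟨_, hz, rfl⟩
        let F : ∀ (h : Q →* X) (hh : Function.Injective h) (hZh : Z.map h = Z'), (↥T ⧸ Z1) →* (↥C ⧸ Z1') :=
          fun h hh hZh => QuotientGroup.map Z1 Z1' (resC Z Z' h hZh) (hemb h hh hZh)
        have hFinj : ∀ h hh hZh, Function.Injective (F h hh hZh) := by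
          intro h hh hZh
          rw [injective_iff_map_eq_one]
          intro y hy
          obtain ⟨t, rfl⟩ := QuotientGroup.mk'_surjective Z1 y
          have h1 : (QuotientGroup.mk (resC Z Z' h hZh t) : ↥C ⧸ Z1') = 1 := hy
          rw [QuotientGroup.eq_one_iff] at h1
          have h2 : h t ∈ Z' := h1
          rw [← hZh] at h2
          obtain ⟨z, hz, hzt⟩ := h2
          have h3 : z = t := hh hzt
          rw [QuotientGroup.mk'_apply, QuotientGroup.eq_one_iff]
          show (t : Q) ∈ Z
          rw [← h3]; exact hz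
        -- the image of T
        have hTimg : ∀ h : Q →* X, Function.Injective h → Z.map h = Z' → T.map h = h.range ⊓ C := by
          intro h hh hZh
          ext x
          constructor
          · rintro ⟨t, ht, rfl⟩
            exact ⟨⟨t, rfl⟩, (resC Z Z' h hZh ⟨t, ht⟩).2⟩
          · rintro ⟨⟨t, rfl⟩, hx⟩
            refine ⟨t, ?_, rfl⟩
            rw [hTd]
            rw [SetLike.mem_coe, mem_centralizer_iff]
            intro z hz
            apply hh
            rw [map_mul, map_mul]
            exact mem_centralizer_iff.1 hx _ (by rw [← hZh]; exact ⟨z, hz, rfl⟩)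
        have hFrange : ∀ h hh hZh, (F h hh hZh).range =
            ((T.map h).subgroupOf C).map (QuotientGroup.mk' Z1') := by
          intro h hh hZh
          ext y
          constructor
          · rintro ⟨w, rfl⟩
            obtain ⟨t, rfl⟩ := QuotientGroup.mk'_surjective Z1 w
            exact ⟨resC Z Z' h hZh t, ⟨t, t.2, rfl⟩, rfl⟩
          · rintro ⟨c, ⟨t, ht, htc⟩, rfl⟩
            refine ⟨QuotientGroup.mk' Z1 ⟨t, ht⟩, ?_⟩
            show (QuotientGroup.mk (resC Z Z' h hZh ⟨t, ht⟩) : ↥C ⧸ Z1') = QuotientGroup.mk c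
            congr 1
            exact Subtype.ext htc
        have hFsyl : ∀ (h : Q →* X) (hh : Function.Injective h) (hZh : Z.map h = Z'), SylIn p h.range ⊤ →
            SylIn p (F h hh hZh).range ⊤ := by
          intro h hh hZh hSh
          refine ⟨le_top, ?_, ?_⟩
          · rw [hFrange h hh hZh]
            have : IsPGroup p (T.map h) := (hQ.to_subgroup T).map h
            exact (this.comap_of_injective C.subtype C.subtype_injective).map _
          · rw [hFrange h hh hZh, relIndex_top_right]
            intro hd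
            have h1 : ((T.map h).subgroupOf C).index ∣ ((T.map h).subgroupOf C).index := dvd_refl _
            have h2 : (((T.map h).subgroupOf C).map (QuotientGroup.mk' Z1')).index ∣
                ((T.map h).subgroupOf C).index :=
              Subgroup.index_map_dvd _ (QuotientGroup.mk'_surjective _)
            have h3 := hd.trans h2
            have h4 : SylIn p (h.range ⊓ C) C := hSh.inf_normal le_top (by
              rw [normalizer_eq_top])
            rw [hTimg h hh hZh] at h3
            exact h4.not_dvd h3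
        have hKmap : ∀ (h : Q →* X) (hh : Function.Injective h) (hZh : Z.map h = Z') (x : X),
            x ∈ K.map h ↔ ∃ hx : x ∈ C, (QuotientGroup.mk' Z1' ⟨x, hx⟩) ∈ K1.map (F h hh hZh) := by
          intro h hh hZh x
          constructor
          · rintro ⟨t, ht, rfl⟩
            have htT := hKT ht
            refine ⟨(resC Z Z' h hZh ⟨t, htT⟩).2, ⟨QuotientGroup.mk' Z1 ⟨t, htT⟩, (hmemK t htT).1 ht, rfl⟩⟩
          · rintro ⟨hx, y, hy, hyx⟩
            obtain ⟨t, rfl⟩ := QuotientGroup.mk'_surjective Z1 y
            have h1 : (QuotientGroup.mk (resC Z Z' h hZh t) : ↥C ⧸ Z1') = QuotientGroup.mk ⟨x, hx⟩ := hyx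
            rw [QuotientGroup.eq] at h1
            have h2 : (h t)⁻¹ * x ∈ Z' := h1
            rw [← hZh] at h2
            obtain ⟨z, hz, hzx⟩ := h2
            have ht : (t : Q) ∈ K := (hmemK t t.2).2 hy
            refine ⟨t * z, K.mul_mem ht (hZK hz), ?_⟩
            rw [map_mul, hzx]; group
        -- normality
        have hmain : ∀ x : X, K.map ((MulAut.conj x).toMonoidHom.comp f) = K.map f := by
          intro x
          set g : Q →* X := (MulAut.conj x).toMonoidHom.comp f with hgd
          have hg : Function.Injective g := (MulAut.conj x).injective.comp hf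
          have hgr : g.range = f.range.map (MulAut.conj x).toMonoidHom := MonoidHom.range_comp _ _
          have hgS : SylIn p g.range ⊤ := by
            rw [hgr]
            refine ⟨le_top, hS.isPGroup.map _, ?_⟩
            have h1 : f.range.map (MulAut.conj x).toMonoidHom = cj x f.range := rfl
            rw [h1]
            have h2 := relIndex_cj x f.range ⊤
            have h3 : cj x (⊤ : Subgroup X) = ⊤ := by
              exact Subgroup.map_top_of_surjective _ (MulAut.conj x).surjective
            rw [h3] at h2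
            rw [h2]; exact hS.not_dvd
          have hZg : Z.map g = Z' := by
            rw [hgd, ← map_map]
            exact (RelSylow.conj_eq_of_mem_normalizer (by rw [normalizer_eq_top]; exact mem_top _))
          -- Sylow subgroups of C
          have h1 : SylIn p (f.range ⊓ C) C := hS.inf_normal le_top (by rw [normalizer_eq_top])
          have h2 : SylIn p (g.range ⊓ C) C := hgS.inf_normal le_top (by rw [normalizer_eq_top])
          obtain ⟨c, hc, hcc⟩ := h1.exists_conj_eq h2
          -- g' = conj c ∘ f
          set g' : Q →* X := (MulAut.conj c).toMonoidHom.comp f with hg'd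
          have hg' : Function.Injective g' := (MulAut.conj c).injective.comp hf
          have hZg' : Z.map g' = Z' := by
            rw [hg'd, ← map_map]
            exact (RelSylow.conj_eq_of_mem_normalizer (by rw [normalizer_eq_top]; exact mem_top _))
          have hTT : T.map g' = T.map g := by
            rw [hTimg g hg hZg, ← hcc, ← hTimg f hf rfl, hg'd, ← map_map]
          have h3 : K1.map (F g' hg' hZg') = K1.map (F g hg hZg) := by
            apply map_eq_of_range_eq hK1ch (hFinj g' hg' hZg') (hFinj g hg hZg)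
            rw [hFrange g' hg' hZg', hFrange g hg hZg, hTT]
          have h4 : (K1.map (F f hf rfl)).Normal := hK1 _ hX1 hO1 _ (hFinj f hf rfl) (hFsyl f hf rfl hS)
          have h5 : F g' hg' hZg' = (MulAut.conj (QuotientGroup.mk' Z1' ⟨c, hc⟩)).toMonoidHom.comp (F f hf rfl) := by
            ext t
            rfl
          have h6 : K1.map (F g' hg' hZg') = K1.map (F f hf rfl) := by
            rw [h5, ← map_map]
            exact (RelSylow.conj_eq_of_mem_normalizer (by rw [normalizer_eq_top]; exact mem_top _))
          ext y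
          rw [hKmap g hg hZg, hKmap f hf rfl, ← h3, h6]
        refine ⟨fun n hn x => ?_⟩
        rw [← hmain x]
        obtain ⟨t, ht, rfl⟩ := hn
        exact ⟨t, ht, rfl⟩

end ind

section join

theorem normal_of_forall_map_le {X : Type*} [Group X] {N : Subgroup X}
    (h : ∀ g : X, N.map (MulAut.conj g).toMonoidHom ≤ N) : N.Normal :=
  ⟨fun n hn g => h g ⟨n, hn, rfl⟩⟩

theorem map_le_of_normal {X : Type*} [Group X] {N : Subgroup X} (h : N.Normal) (g : X) :
    N.map (MulAut.conj g).toMonoidHom ≤ N := by
  rintro _ ⟨n, hn, rfl⟩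
  exact h.conj_mem n hn g

/-- the join of all good subgroups -/
noncomputable def GW (p : ℕ) (Q : Type u) [Group Q] : Subgroup Q :=
  sSup {K : Subgroup Q | Good.{u} p Q K}

theorem good_GW {p : ℕ} [hp : Fact p.Prime] (hp2 : p ≠ 2) (Q : Type u) [Group Q] [Finite Q] (hQ : IsPGroup p Q) :
    Good.{u} p Q (GW.{u} p Q) := by
  obtain ⟨K0, hK0⟩ := exists_good hp2 (Nat.card Q) Q rfl hQ
  refine ⟨?_, ?_, ?_⟩
  · rw [characteristic_iff_map_le]
    intro φ
    rw [map_le_iff_le_comap]
    refine sSup_le fun K hK => ?_
    rw [← map_le_iff_le_comap]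
    exact (characteristic_iff_map_le.1 hK.1 φ).trans (le_sSup hK)
  · exact (centralizer_le (le_sSup hK0 : K0 ≤ GW.{u} p Q)).trans (hK0.2.1.trans (le_sSup hK0))
  · intro X _ _ hX hO f hf hS
    apply normal_of_forall_map_le
    intro g
    rw [map_map, map_le_iff_le_comap]
    refine sSup_le fun K hK => ?_
    rw [← map_le_iff_le_comap, ← map_map]
    exact (map_le_of_normal (hK.2.2 X hX hO f hf hS) g).trans (map_mono (le_sSup hK))

theorem good_map {p : ℕ} {Q R : Type u} [Group Q] [Group R] (φ : Q ≃* R) {K : Subgroup Q} (h : Good.{u} p Q K) :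
    Good.{u} p R (K.map φ.toMonoidHom) := by
  refine ⟨?_, ?_, ?_⟩
  · rw [characteristic_iff_map_le]
    intro ψ
    have h1 := characteristic_iff_map_le.1 h.1 ((φ.trans ψ).trans φ.symm)
    rintro _ ⟨_, ⟨k, hk, rfl⟩, rfl⟩
    have h2 : φ.symm (ψ (φ k)) ∈ K := h1 ⟨k, hk, rfl⟩
    refine ⟨_, h2, ?_⟩
    exact φ.apply_symm_apply _
  · intro c hc
    refine ⟨φ.symm c, h.2.1 ?_, φ.apply_symm_apply _⟩
    rw [mem_centralizer_iff]
    intro k hk
    apply φ.injective
    rw [map_mul, map_mul, φ.apply_symm_apply]
    exact mem_centralizer_iff.1 hc _ ⟨k, hk, rfl⟩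
  · intro X _ _ hX hO f hf hS
    have h1 := h.2.2 X hX hO (f.comp φ.toMonoidHom) (hf.comp φ.injective) (by
      have : (f.comp φ.toMonoidHom).range = f.range := by
        rw [MonoidHom.range_comp, MonoidHom.range_eq_top.2 φ.surjective, ← MonoidHom.range_eq_map]
      rw [this]; exact hS)
    rwa [← map_map] at h1

theorem isChar_GW {p : ℕ} [hp : Fact p.Prime] (hp2 : p ≠ 2) : Cfsg.IsCharPFunctor.{u} p (GW.{u} p) := by
  constructor
  · intro Q _ _ hQ hnt hbot
    have h := (good_GW hp2 Q hQ).2.1
    rw [hbot] at h
    have h1 : (⊤ : Subgroup Q) ≤ ⊥ := by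
      refine le_trans ?_ h
      intro x _
      rw [mem_centralizer_iff]
      intro y hy
      have : y = 1 := hy
      rw [this]; simp
    obtain ⟨x, hx⟩ := exists_ne (1 : Q)
    exact hx (mem_bot.1 (h1 (mem_top x)))
  · intro Q R _ _ _ hQ φ
    apply le_antisymm
    · rw [map_le_iff_le_comap]
      refine sSup_le fun K hK => ?_
      rw [← map_le_iff_le_comap]
      exact le_sSup (good_map φ hK)
    · refine sSup_le fun K hK => ?_
      have h1 := good_map φ.symm hK
      have h2 : K.map φ.symm.toMonoidHom ≤ GW.{u} p Q := le_sSup h1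
      intro k hk
      exact ⟨φ.symm k, h2 ⟨k, hk, rfl⟩, φ.apply_symm_apply _⟩

theorem nilCtrl_GW {p : ℕ} [hp : Fact p.Prime] (hp2 : p ≠ 2) (G : Type u) [Group G] [Finite G] :
    NilCtrl p (GW.{u} p) True G := by
  refine NilMain.nil_all (isChar_GW hp2) ?_
  intro X _ _ hX hO _ S D hS _ hDS
  rw [hDS trivial]
  have hSp : IsPGroup p ↥S := hS.isPGroup
  exact (good_GW hp2 ↥S hSp).2.2 X hX hO S.subtype S.subtype_injective (by rwa [S.range_subtype])

end join

end Cfsg.Agent.Lib.GoodChar
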