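import Mathlib
import Cfsg.Agent.Lib.CharBasic2
import Cfsg.Agent.Lib.CharApps
import Cfsg.Agent.Lib.PGroupOdd

/-!
Orbits of the automorphism group: the inverse orbit length sum, the class number bound coming from
degrees at least `p`, and the automorphism `g ↦ g z` trivial on a normal subgroup with cyclic quotient.
-/

set_option autoImplicit false

namespace Cfsg.Agent.Lib.H10AutOrb

universe u

open scoped commutatorElement

theorem sum_inv_orbit {A X : Type*} [Group A] [MulAction A X] [Fintype X] :
    ∑ x : X, (1 : ℚ) / Nat.card (MulAction.orbit A x) =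
      Nat.card (MulAction.orbitRel.Quotient A X) := by
  classical
  have : Fintype (MulAction.orbitRel.Quotient A X) := Fintype.ofFinite _
  rw [← Finset.sum_fiberwise_of_maps_to (s := (Finset.univ : Finset X))
    (t := (Finset.univ : Finset (MulAction.orbitRel.Quotient A X)))
    (g := fun x => (Quotient.mk'' x : MulAction.orbitRel.Quotient A X)) (fun x _ => Finset.mem_univ _)]
  rw [Nat.card_eq_fintype_card, ← Finset.card_univ, Finset.cast_card]
  refine Finset.sum_congr rfl fun ω _ => ?_
  induction ω using Quotient.inductionOn' with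
  | h x =>
    have h1 : ∀ y ∈ (Finset.univ.filter fun y : X =>
        (Quotient.mk'' y : MulAction.orbitRel.Quotient A X) = Quotient.mk'' x),
        (1 : ℚ) / Nat.card (MulAction.orbit A y) = 1 / Nat.card (MulAction.orbit A x) := by
      intro y hy
      rw [Finset.mem_filter, Quotient.eq'', MulAction.orbitRel_apply] at hy
      rw [MulAction.orbit_eq_iff.mpr hy.2]
    rw [Finset.sum_congr rfl h1, Finset.sum_const, nsmul_eq_mul]
    have h2 : (Finset.univ.filter fun y : X =>
        (Quotient.mk'' y : MulAction.orbitRel.Quotient A X) = Quotient.mk'' x).card =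
        Nat.card (MulAction.orbit A x) := by
      rw [← Set.ncard_coe_finset]
      congr 1
      ext y
      simp only [Finset.coe_filter, Finset.mem_univ, true_and, Set.mem_ofPred_eq]
      rw [Quotient.eq'', MulAction.orbitRel_apply]
    rw [h2]
    have h3 : (0 : ℚ) < Nat.card (MulAction.orbit A x) := by
      have : Nonempty (MulAction.orbit A x) := ⟨⟨x, MulAction.mem_orbit_self x⟩⟩
      exact_mod_cast Nat.card_pos
    field_simp

open Cfsg.Agent.Lib Cfsg.Agent.Lib.CharApps Cfsg.Agent.Lib.CharBasic in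
/-- If every nontrivial divisor of the order is at least `p`, the class number is bounded in terms of
the order of the commutator subgroup. -/
theorem class_bound {G : Type u} [Group G] [Finite G] {p : ℕ} (hp : 1 < p)
    (h : ∀ d : ℕ, d ∣ Nat.card G → d ≠ 1 → p ≤ d) :
    (Nat.card (ConjClasses G) : ℚ) ≤
      (commutator G).index + ((Nat.card G : ℚ) - (commutator G).index) / p ^ 2 := by
  classical
  choose d hd0 hd using fun χ : IrrCharacter G => χ.2.exists_degree
  have hdd : ∀ χ, d χ ∣ Nat.card G := fun χ => irr_degree_dvd_card χ.2 (hd χ)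
  have h1 : ∑ χ, (d χ : ℚ) ^ 2 = Nat.card G := by
    have h2 := sum_degree_sq (G := G)
    simp only [hd] at h2
    exact_mod_cast h2
  have h3 : (Finset.univ.filter fun χ : IrrCharacter G => d χ = 1).card = (commutator G).index := by
    rw [← card_linear, Nat.card_eq_fintype_card, Fintype.card_subtype]
    congr 1
    ext χ
    simp [hd]
  have h4 : (∑ _χ : IrrCharacter G, (1 : ℚ)) ≤ ∑ χ : IrrCharacter G,
      ((if d χ = 1 then 1 - 1 / (p : ℚ) ^ 2 else 0) + (d χ : ℚ) ^ 2 / p ^ 2) := by
    have hp0 : (0 : ℚ) < p := by exact_mod_cast (by omega : 0 < p)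
    refine Finset.sum_le_sum fun χ _ => ?_
    by_cases hc : d χ = 1
    · rw [if_pos hc, hc]
      norm_num
    · rw [if_neg hc, zero_add, le_div_iff₀ (by positivity), one_mul]
      have := h (d χ) (hdd χ) hc
      have h5 : (p : ℚ) ≤ d χ := by exact_mod_cast this
      exact pow_le_pow_left₀ hp0.le h5 2
  rw [Finset.sum_add_distrib, ← Finset.sum_div, h1, ← Finset.sum_filter, Finset.sum_const,
    Finset.sum_const, h3, nsmul_eq_mul, mul_one, nsmul_eq_mul, Finset.card_univ,
    ← Nat.card_eq_fintype_card, card_irr] at h4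
  refine h4.trans (le_of_eq ?_)
  ring

/-- A normal subgroup of the least prime order is central. -/
theorem le_center_of_card {G : Type*} [Group G] [Finite G] {p : ℕ} (hp : p.Prime)
    (h : ∀ d : ℕ, d ∣ Nat.card G → d ≠ 1 → p ≤ d) (N : Subgroup G) [N.Normal]
    (hN : Nat.card N = p) : N ≤ Subgroup.center G := by
  have : Fact p.Prime := ⟨hp⟩
  have : IsCyclic N := isCyclic_of_prime_card hN
  have h1 : Nat.card (MulAut N) = p - 1 := by
    rw [IsCyclic.card_mulAut, hN, Nat.totient_prime hp]
  have h2 : (MulAut.conjNormal : G →* MulAut N) = 1 := by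
    ext1 g
    have h3 : orderOf (MulAut.conjNormal g : MulAut N) ∣ p - 1 := h1 ▸ orderOf_dvd_natCard _
    have h4 : orderOf (MulAut.conjNormal g : MulAut N) ∣ Nat.card G :=
      (orderOf_map_dvd _ g).trans (orderOf_dvd_natCard g)
    have h5 : orderOf (MulAut.conjNormal g : MulAut N) = 1 := by
      by_contra hne
      have h6 := h _ h4 hne
      have h7 := Nat.le_of_dvd (by have := hp.two_le; omega) h3
      have := hp.two_le
      omega
    exact orderOf_eq_one_iff.mp h5
  intro n hn
  rw [Subgroup.mem_center_iff]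
  intro g
  have h3 := congrArg (fun f : G →* MulAut N => ((f g) ⟨n, hn⟩ : G)) h2
  simp only [MulAut.conjNormal_apply, MonoidHom.one_apply, MulAut.one_apply] at h3
  exact mul_inv_eq_iff_eq_mul.mp h3

/-- An automorphism trivial on a normal subgroup `C` with cyclic quotient generated by `g`, and
mapping `g` to `g z`. -/
theorem exists_aut {G : Type*} [Group G] [Finite G] (C : Subgroup G) [C.Normal] {g z : G} {n : ℕ}
    (hgen : ∀ x : G, ∃ c ∈ C, ∃ i : ℤ, x = c * g ^ i) (hn : ∀ i : ℤ, g ^ i ∈ C → (n : ℤ) ∣ i)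
    (hz : z ∈ C) (hzc : ∀ c ∈ C, z * c = c * z) (hpow : (g * z) ^ n = g ^ n) :
    ∃ τ : MulAut G, (∀ c ∈ C, τ c = c) ∧ τ g = g * z := by
  classical
  choose c hc i hi using hgen
  have key : ∀ d ∈ C, ∀ j : ℤ, ∀ d' ∈ C, ∀ j' : ℤ, d * g ^ j = d' * g ^ j' →
      d * (g * z) ^ j = d' * (g * z) ^ j' := by
    intro d hd j d' hd' j' h
    have h1 : g ^ (j' - j) = d'⁻¹ * d := by
      rw [zpow_sub, eq_inv_mul_iff_mul_eq, ← mul_assoc, mul_inv_eq_iff_eq_mul]
      exact h.symm
    obtain ⟨k, hk⟩ := hn (j' - j) (h1 ▸ C.mul_mem (C.inv_mem hd') hd)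
    have h2 : (g * z) ^ (j' - j) = g ^ (j' - j) := by
      rw [hk, zpow_mul, zpow_mul, zpow_natCast, zpow_natCast, hpow]
    have h3 : (g * z) ^ j' = (g * z) ^ (j' - j) * (g * z) ^ j := by
      rw [← zpow_add, sub_add_cancel]
    rw [h3, h2, h1]
    group
  have hconj : ∀ j : ℤ, ∀ d ∈ C, (g * z) ^ j * d * ((g * z) ^ j)⁻¹ = g ^ j * d * (g ^ j)⁻¹ := by
    have h0 : z ∈ Subgroup.centralizer (C : Set G) := by
      rw [Subgroup.mem_centralizer_iff]
      intro d hd
      exact (hzc d hd).symm
    have hN : (Subgroup.centralizer (C : Set G)).Normal := inferInstance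
    have h1 : (QuotientGroup.mk (g * z) : G ⧸ Subgroup.centralizer (C : Set G)) =
        QuotientGroup.mk g := by
      rw [QuotientGroup.mk_mul, (QuotientGroup.eq_one_iff z).mpr h0, mul_one]
    intro j d hd
    have h2 : (QuotientGroup.mk ((g * z) ^ j) : G ⧸ Subgroup.centralizer (C : Set G)) =
        QuotientGroup.mk (g ^ j) := by
      rw [QuotientGroup.mk_zpow, QuotientGroup.mk_zpow, h1]
    have h3 : (g ^ j)⁻¹ * (g * z) ^ j ∈ Subgroup.centralizer (C : Set G) :=
      QuotientGroup.eq.mp h2.symm
    rw [Subgroup.mem_centralizer_iff] at h3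
    have h4 := h3 d hd
    calc (g * z) ^ j * d * ((g * z) ^ j)⁻¹
        = g ^ j * ((g ^ j)⁻¹ * (g * z) ^ j * d) * ((g * z) ^ j)⁻¹ := by group
      _ = g ^ j * (d * ((g ^ j)⁻¹ * (g * z) ^ j)) * ((g * z) ^ j)⁻¹ := by rw [h4]
      _ = g ^ j * d * (g ^ j)⁻¹ := by group
  let F : G → G := fun x => c x * (g * z) ^ i x
  have hF : ∀ d ∈ C, ∀ j : ℤ, F (d * g ^ j) = d * (g * z) ^ j := fun d hd j =>
    key _ (hc _) _ d hd j (hi _).symm
  have hmul : ∀ x y, F (x * y) = F x * F y := by
    intro x y
    have h1 : x * y = (c x * (g ^ i x * c y * (g ^ i x)⁻¹)) * g ^ (i x + i y) := by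
      conv_lhs => rw [hi x, hi y]
      rw [zpow_add]
      group
    rw [h1, hF _ (C.mul_mem (hc x) (Subgroup.Normal.conj_mem inferInstance _ (hc y) _)),
      ← hconj _ _ (hc y), zpow_add]
    simp only [F]
    group
  let f : G →* G := MonoidHom.mk' F hmul
  have hfC : ∀ d ∈ C, f d = d := by
    intro d hd
    have h1 : F d = d := by simpa using hF d hd 0
    exact h1
  have hfg : f g = g * z := by
    have h1 : F g = g * z := by simpa using hF 1 C.one_mem 1
    exact h1
  have hsurj : Function.Surjective f := by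
    rw [← MonoidHom.range_eq_top, eq_top_iff]
    have hg : g ∈ f.range := by
      have h1 : g * z ∈ f.range := ⟨g, hfg⟩
      have h2 : z ∈ f.range := ⟨z, hfC z hz⟩
      have := f.range.mul_mem h1 (f.range.inv_mem h2)
      rwa [mul_inv_cancel_right] at this
    intro x _
    rw [hi x]
    exact f.range.mul_mem ⟨c x, hfC _ (hc x)⟩ (f.range.zpow_mem hg _)
  exact ⟨MulEquiv.ofBijective f ⟨Finite.injective_iff_surjective.mpr hsurj, hsurj⟩,
    fun d hd => hfC d hd, hfg⟩

section

variable {G : Type*} [Group G] [Finite G] {p : ℕ}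

/-- `y ↦ ⁅y, x⁆` is a homomorphism when the commutator subgroup is central. -/
def commHom (hZ : commutator G ≤ Subgroup.center G) (x : G) : G →* commutator G where
  toFun y := ⟨⁅y, x⁆, Subgroup.commutator_mem_commutator (Subgroup.mem_top _) (Subgroup.mem_top _)⟩
  map_one' := by ext; simp
  map_mul' a b := by
    ext
    have h1 : ⁅b, x⁆ ∈ Subgroup.center G :=
      hZ (Subgroup.commutator_mem_commutator (Subgroup.mem_top _) (Subgroup.mem_top _))
    rw [Subgroup.mem_center_iff] at h1
    have h2 := h1 a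
    simp only [Subgroup.coe_mul]
    have h3 : ⁅a * b, x⁆ = a * ⁅b, x⁆ * a⁻¹ * ⁅a, x⁆ := by
      simp only [commutatorElement_def]; group
    rw [h3, h2, mul_inv_cancel_right]
    have h4 := h1 ⁅a, x⁆
    exact h4.symm

theorem commHom_surjective (hp : p.Prime) (hZ : commutator G ≤ Subgroup.center G)
    (hcard : Nat.card (commutator G) = p) {x : G} (hx : x ∉ Subgroup.center G) :
    Function.Surjective (commHom hZ x) := by
  rw [← MonoidHom.range_eq_top]
  have h1 : Nat.card (commHom hZ x).range ∣ p := hcard ▸ Subgroup.card_subgroup_dvd_card _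
  rcases (Nat.dvd_prime hp).mp h1 with h2 | h2
  · exfalso
    apply hx
    rw [Subgroup.mem_center_iff]
    intro g
    rw [Subgroup.card_eq_one, MonoidHom.range_eq_bot_iff] at h2
    have h3 := congrArg (fun f : G →* commutator G => ((f g : commutator G) : G)) h2
    have h4 : ⁅g, x⁆ = 1 := h3
    exact (commutatorElement_eq_one_iff_mul_comm.mp h4)
  · exact Subgroup.eq_top_of_card_eq _ (h2.trans hcard.symm)

omit [Finite G] in
theorem ker_commHom (hZ : commutator G ≤ Subgroup.center G) (x : G) :
    (commHom hZ x).ker = Subgroup.centralizer ({x} : Set G) := by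
  ext y
  rw [MonoidHom.mem_ker, Subgroup.mem_centralizer_singleton_iff]
  constructor
  · intro h
    have h1 := congrArg Subtype.val h
    exact commutatorElement_eq_one_iff_mul_comm.mp h1
  · intro h
    exact Subtype.ext (commutatorElement_eq_one_iff_mul_comm.mpr h)

theorem index_centralizer (hp : p.Prime) (hZ : commutator G ≤ Subgroup.center G)
    (hcard : Nat.card (commutator G) = p) {x : G} (hx : x ∉ Subgroup.center G) :
    (Subgroup.centralizer ({x} : Set G)).index = p := by
  rw [← ker_commHom hZ, Subgroup.index_ker,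
    MonoidHom.range_eq_top.mpr (commHom_surjective hp hZ hcard hx), Subgroup.card_top, hcard]

/-- the class of a noncentral element is a coset of the commutator subgroup -/
theorem exists_conj (hp : p.Prime) (hZ : commutator G ≤ Subgroup.center G)
    (hcard : Nat.card (commutator G) = p) {x : G} (hx : x ∉ Subgroup.center G) {u : G}
    (hu : u ∈ commutator G) : ∃ y : G, y * x * y⁻¹ = x * u := by
  obtain ⟨y, hy⟩ := commHom_surjective hp hZ hcard hx ⟨u, hu⟩
  have h1 : ⁅y, x⁆ = u := congrArg Subtype.val hy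
  refine ⟨y, ?_⟩
  rw [Subgroup.mem_center_iff.mp (hZ hu) x, ← h1, commutatorElement_def]
  group

/-- long orbits outside the centralizer `C` -/
theorem orbit_big (hp : p.Prime) (h : ∀ d : ℕ, d ∣ Nat.card G → d ≠ 1 → p ≤ d)
    (hZ : commutator G ≤ Subgroup.center G)
    (hcard : Nat.card (commutator G) = p) {x₀ : G} (hx₀ : x₀ ∉ Subgroup.center G) {z : G}
    (hz : z ∈ Subgroup.centralizer ({x₀} : Set G))
    (hzc : ∀ c ∈ Subgroup.centralizer ({x₀} : Set G), z * c = c * z) (hzG : z ∉ commutator G)
    {x : G} (hx : x ∉ Subgroup.centralizer ({x₀} : Set G)) (hpow : (x * z) ^ p = x ^ p) :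
    p ^ 2 ≤ Nat.card (MulAction.orbit (MulAut G) x) := by
  classical
  set C := Subgroup.centralizer ({x₀} : Set G) with hC
  have hCN : C.Normal := by
    rw [hC, ← ker_commHom hZ]
    infer_instance
  have hidx : C.index = p := index_centralizer hp hZ hcard hx₀
  have hcardq : Nat.card (G ⧸ C) = p := hidx
  have hfp : Fact p.Prime := ⟨hp⟩
  have hxq : (QuotientGroup.mk x : G ⧸ C) ≠ 1 := fun hh => hx ((QuotientGroup.eq_one_iff x).mp hh)
  have hord : orderOf (QuotientGroup.mk x : G ⧸ C) = p := by
    have h1 := orderOf_dvd_natCard (QuotientGroup.mk x : G ⧸ C)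
    rw [hcardq] at h1
    rcases (Nat.dvd_prime hp).mp h1 with h2 | h2
    · exact absurd (orderOf_eq_one_iff.mp h2) hxq
    · exact h2
  have hgen : ∀ y : G, ∃ c ∈ C, ∃ i : ℤ, y = c * x ^ i := by
    intro y
    have h1 : (QuotientGroup.mk y : G ⧸ C) ∈ Subgroup.zpowers (QuotientGroup.mk x : G ⧸ C) := by
      rw [(Subgroup.eq_top_of_card_eq (Subgroup.zpowers (QuotientGroup.mk x : G ⧸ C))
        (by rw [Nat.card_zpowers, hord, hcardq]))]
      exact Subgroup.mem_top _
    obtain ⟨i, hi⟩ := Subgroup.mem_zpowers_iff.mp h1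
    refine ⟨y * (x ^ i)⁻¹, ?_, i, by group⟩
    rw [← QuotientGroup.eq_one_iff, QuotientGroup.mk_mul, QuotientGroup.mk_inv,
      QuotientGroup.mk_zpow, hi, mul_inv_cancel]
  have hn : ∀ i : ℤ, x ^ i ∈ C → (p : ℤ) ∣ i := by
    intro i hi
    rw [← hord, orderOf_dvd_iff_zpow_eq_one, ← QuotientGroup.mk_zpow]
    exact (QuotientGroup.eq_one_iff _).mpr hi
  obtain ⟨τ, hτC, hτx⟩ := exists_aut C hgen hn hz hzc hpow
  have hτz : τ z = z := hτC z hz
  -- the orbit contains `x z ^ k u`
  have horb : ∀ k : ℕ, ∀ u ∈ commutator G, x * z ^ k * u ∈ MulAction.orbit (MulAut G) x := by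
    intro k u hu
    have h1 : x * z ^ k ∈ MulAction.orbit (MulAut G) x := by
      induction k with
      | zero => rw [pow_zero, mul_one]; exact MulAction.mem_orbit_self x
      | succ k ih =>
        obtain ⟨σ, hσ⟩ := ih
        refine ⟨τ * σ, ?_⟩
        change τ (σ x) = _
        have hσ' : σ x = x * z ^ k := hσ
        rw [hσ', map_mul, hτx, map_pow, hτz, pow_succ', mul_assoc]
    have h2 : x * z ^ k ∉ Subgroup.center G := by
      intro h3
      have h4 : x * z ^ k ∈ C := by
        rw [hC, Subgroup.mem_centralizer_singleton_iff]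
        exact (Subgroup.mem_center_iff.mp h3 x₀).symm
      exact hx ((C.mul_mem_cancel_right (C.pow_mem hz k)).mp h4)
    obtain ⟨y, hy⟩ := exists_conj hp hZ hcard h2 hu
    obtain ⟨σ, hσ⟩ := h1
    refine ⟨MulAut.conj y * σ, ?_⟩
    change MulAut.conj y (σ x) = _
    have hσ' : σ x = x * z ^ k := hσ
    rw [hσ', MulAut.conj_apply, hy]
  -- the group generated by `z` and the commutator subgroup
  let D : Subgroup G := Subgroup.zpowers z ⊔ commutator G
  have hD : p ^ 2 ≤ Nat.card D := by
    have h1 : commutator G ≤ D := le_sup_right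
    have h2 : Nat.card (commutator G) * (commutator G).relIndex D = Nat.card D := by
      rw [Subgroup.relIndex, ← Nat.card_congr (Subgroup.subgroupOfEquivOfLe h1).toEquiv,
        Subgroup.card_mul_index]
    have h3 : (commutator G).relIndex D ≠ 1 := by
      rw [Ne, Subgroup.relIndex_eq_one]
      intro h4
      exact hzG (h4 ((le_sup_left : Subgroup.zpowers z ≤ D) (Subgroup.mem_zpowers z)))
    have h4 : (commutator G).relIndex D ∣ Nat.card G :=
      (Dvd.intro_left _ h2).trans (Subgroup.card_subgroup_dvd_card D)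
    rw [← h2, hcard, sq]
    exact Nat.mul_le_mul_left _ (h _ h4 h3)
  refine hD.trans ?_
  have hinj : ∀ d : D, x * (d : G) ∈ MulAction.orbit (MulAut G) x := by
    intro ⟨d, hd⟩
    obtain ⟨a, ha, u, hu, rfl⟩ := Subgroup.mem_sup_of_normal_right.mp hd
    obtain ⟨k, rfl⟩ : ∃ k : ℕ, z ^ k = a := by
      obtain ⟨k, -, hk⟩ := (mem_zpowers_iff_mem_range_orderOf.mp ha |> Finset.mem_image.mp)
      exact ⟨k, hk⟩
    rw [← mul_assoc]
    exact horb k u hu
  exact Nat.card_le_card_of_injective
    (fun d : D => (⟨x * (d : G), hinj d⟩ : MulAction.orbit (MulAut G) x))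
    (fun a b hab => Subtype.ext (mul_left_cancel (congrArg Subtype.val hab)))

theorem card_center_le (hp : p.Prime) (h : ∀ d : ℕ, d ∣ Nat.card G → d ≠ 1 → p ≤ d)
    (hZ : commutator G ≤ Subgroup.center G) (hcard : Nat.card (commutator G) = p) {x₀ : G}
    (hx₀ : x₀ ∉ Subgroup.center G) : p ^ 2 * Nat.card (Subgroup.center G) ≤ Nat.card G := by
  set C := Subgroup.centralizer ({x₀} : Set G) with hC
  have hidx : C.index = p := index_centralizer hp hZ hcard hx₀
  have h1 : Subgroup.center G ≤ C := Subgroup.center_le_centralizer _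
  have h2 : Nat.card (Subgroup.center G) * (Subgroup.center G).relIndex C = Nat.card C := by
    rw [Subgroup.relIndex, ← Nat.card_congr (Subgroup.subgroupOfEquivOfLe h1).toEquiv,
      Subgroup.card_mul_index]
  have h3 : (Subgroup.center G).relIndex C ≠ 1 := by
    rw [Ne, Subgroup.relIndex_eq_one]
    intro h4
    exact hx₀ (h4 (by rw [hC, Subgroup.mem_centralizer_singleton_iff]))
  have h4 : p ≤ (Subgroup.center G).relIndex C :=
    h _ ((Dvd.intro_left _ h2).trans (Subgroup.card_subgroup_dvd_card C)) h3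
  rw [← C.card_mul_index, hidx, ← h2]
  calc p ^ 2 * Nat.card (Subgroup.center G) = Nat.card (Subgroup.center G) * p * p := by ring
    _ ≤ _ := Nat.mul_le_mul_right _ (Nat.mul_le_mul_left _ h4)

omit [Finite G] in
theorem pow_mem_center (hZ : commutator G ≤ Subgroup.center G)
    (hcard : Nat.card (commutator G) = p) (x : G) : x ^ p ∈ Subgroup.center G := by
  rw [Subgroup.mem_center_iff]
  intro g
  have h1 : commHom hZ g (x ^ p) = 1 := by
    rw [map_pow, ← hcard, pow_card_eq_one']
  have h2 : ⁅x ^ p, g⁆ = 1 := congrArg Subtype.val h1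
  exact (commutatorElement_eq_one_iff_mul_comm.mp h2).symm

theorem exists_z (hp : p.Prime) (h : ∀ d : ℕ, d ∣ Nat.card G → d ≠ 1 → p ≤ d)
    (hZ : commutator G ≤ Subgroup.center G) (hcard : Nat.card (commutator G) = p) :
    ∃ x₀ ∉ Subgroup.center G, ∃ z ∈ Subgroup.centralizer ({x₀} : Set G),
      (∀ c ∈ Subgroup.centralizer ({x₀} : Set G), z * c = c * z) ∧ z ∉ commutator G ∧
      ∀ x ∉ Subgroup.centralizer ({x₀} : Set G), (x * z) ^ p = x ^ p := by
  classical
  have hfp : Fact p.Prime := ⟨hp⟩
  -- some noncentral element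
  obtain ⟨w, hw⟩ : ∃ w, w ∉ Subgroup.center G := by
    by_contra hne
    push Not at hne
    have h1 : commutator G = ⊥ := by
      rw [commutator_def, Subgroup.commutator_eq_bot_iff_le_centralizer]
      intro a _
      rw [Subgroup.mem_centralizer_iff]
      intro b _
      exact Subgroup.mem_center_iff.mp (hne a) b
    rw [h1, Subgroup.card_bot] at hcard
    exact hp.one_lt.ne hcard
  have hfin : ∀ z ∉ commutator G, (∀ x₀, (z ∉ Subgroup.center G → x₀ = z) →
      x₀ ∉ Subgroup.center G →
      ∀ x ∉ Subgroup.centralizer ({x₀} : Set G), (x * z) ^ p = x ^ p) →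
      ∃ x₀ ∉ Subgroup.center G, ∃ z ∈ Subgroup.centralizer ({x₀} : Set G),
      (∀ c ∈ Subgroup.centralizer ({x₀} : Set G), z * c = c * z) ∧ z ∉ commutator G ∧
      ∀ x ∉ Subgroup.centralizer ({x₀} : Set G), (x * z) ^ p = x ^ p := by
    intro z hz hall
    by_cases hc : z ∈ Subgroup.center G
    · refine ⟨w, hw, z, ?_, ?_, hz, hall w (fun hh => absurd hc hh) hw⟩
      · exact Subgroup.center_le_centralizer _ hc
      · intro c _
        exact (Subgroup.mem_center_iff.mp hc c).symm
    · refine ⟨z, hc, z, ?_, ?_, hz, hall z (fun _ => rfl) hc⟩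
      · rw [Subgroup.mem_centralizer_singleton_iff]
      · intro c hcc
        rw [Subgroup.mem_centralizer_singleton_iff] at hcc
        exact hcc.symm
  rcases hp.eq_two_or_odd' with rfl | hodd
  · -- p = 2
    obtain ⟨c, hcG, hc1, hcall⟩ : ∃ c ∈ commutator G, c ≠ 1 ∧ ∀ u ∈ commutator G, u = 1 ∨ u = c := by
      have h1 : 1 < Nat.card (commutator G) := by omega
      have := Finite.one_lt_card_iff_nontrivial.mp h1
      obtain ⟨⟨c, hc⟩, hc1⟩ := exists_ne (1 : commutator G)
      refine ⟨c, hc, fun hh => hc1 (Subtype.ext hh), ?_⟩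
      intro u hu
      by_contra hne
      push Not at hne
      have h2 : ({1, ⟨c, hc⟩, ⟨u, hu⟩} : Finset (commutator G)).card = 3 := by
        rw [Finset.card_eq_three]
        refine ⟨_, _, _, ?_, ?_, ?_, rfl⟩
        · exact fun hh => hc1 hh.symm
        · exact fun hh => hne.1 (congrArg Subtype.val hh).symm
        · exact fun hh => hne.2 (congrArg Subtype.val hh).symm
      have := Fintype.ofFinite (commutator G)
      have h3 := Finset.card_le_univ ({1, ⟨c, hc⟩, ⟨u, hu⟩} : Finset (commutator G))
      rw [h2, ← Nat.card_eq_fintype_card, hcard] at h3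
      omega
    have hcc : c * c = 1 := by
      have h1 : (⟨c, hcG⟩ : commutator G) ^ Nat.card (commutator G) = 1 := pow_card_eq_one'
      rw [hcard, sq] at h1
      exact congrArg Subtype.val h1
    have hcZ := Subgroup.mem_center_iff.mp (hZ hcG)
    by_cases hex : ∃ z ∈ Subgroup.center G, z ∉ commutator G ∧ z ^ 2 = 1
    · obtain ⟨z, hzZ, hzG, hz2⟩ := hex
      refine hfin z hzG fun x₀ _ _ x _ => ?_
      have h1 : Commute x z := Subgroup.mem_center_iff.mp hzZ x
      rw [h1.mul_pow, hz2, mul_one]
    · push Not at hex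
      -- the squares in the centre have index two
      let f : Subgroup.center G →* Subgroup.center G := MonoidHom.mk' (fun x => x ^ 2) (by
        intro a b
        have h1 : Commute a b := by
          apply Subtype.ext
          exact Subgroup.mem_center_iff.mp b.2 a
        exact h1.mul_pow 2)
      have hker : Nat.card f.ker = 2 := by
        have h1 : (f.ker).map (Subgroup.center G).subtype = commutator G := by
          ext u
          constructor
          · rintro ⟨⟨v, hv⟩, hv1, rfl⟩
            by_contra hne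
            exact hex v hv hne (congrArg Subtype.val hv1)
          · intro hu
            refine ⟨⟨u, hZ hu⟩, ?_, rfl⟩
            rw [SetLike.mem_coe, MonoidHom.mem_ker]
            ext
            change u ^ 2 = 1
            rw [sq]
            rcases hcall u hu with rfl | rfl
            · rw [mul_one]
            · exact hcc
        rw [← hcard, ← h1, Subgroup.card_map_of_injective (Subgroup.subtype_injective _)]
      have hidx : f.range.index = 2 := by
        have h1 := f.range.card_mul_index
        have h2 := Subgroup.card_mul_index f.ker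
        rw [Subgroup.index_ker, hker] at h2
        rw [← h2, mul_comm 2] at h1
        exact Nat.eq_of_mul_eq_mul_left Nat.card_pos h1
      -- two noncommuting elements
      obtain ⟨y, hy⟩ : ∃ y, y * w ≠ w * y := by
        by_contra hne
        push Not at hne
        exact hw (Subgroup.mem_center_iff.mpr hne)
      have hsq : ∀ v : G, v ^ 2 ∈ Subgroup.center G := pow_mem_center hZ hcard
      have hyw : y * w = w * y * c := by
        have h1 : y⁻¹ * w⁻¹ * y * w ∈ commutator G := by
          have : y⁻¹ * w⁻¹ * y * w = ⁅y⁻¹, w⁻¹⁆ := by rw [commutatorElement_def]; group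
          rw [this]
          exact Subgroup.commutator_mem_commutator (Subgroup.mem_top _) (Subgroup.mem_top _)
        rcases hcall _ h1 with h2 | h2
        · exfalso
          apply hy
          calc y * w = w * y * (y⁻¹ * w⁻¹ * y * w) := by group
            _ = _ := by rw [h2, mul_one]
        · rw [← h2]; group
      have hwy2 : (w * y) ^ 2 = w ^ 2 * y ^ 2 * c := by
        have h1 := Cfsg.Agent.Lib.PGroupOdd.mul_pow_of_comm hyw (hcZ w).symm (hcZ y).symm 2
        rwa [show Nat.choose 2 2 = 1 from rfl, pow_one] at h1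
      have hwyZ : w * y ∉ Subgroup.center G := by
        intro h1
        apply hy
        have h2 := Subgroup.mem_center_iff.mp h1 w
        have h3 : w * (w * y) = w * (y * w) := by rw [h2]; group
        exact (mul_left_cancel h3).symm
      have hyZ : y ∉ Subgroup.center G := by
        intro h1
        exact hy (Subgroup.mem_center_iff.mp h1 w).symm
      -- an element whose square times `c` is the square of a central element
      obtain ⟨v, hvZ, s, hs, hvs⟩ : ∃ v ∉ Subgroup.center G, ∃ s ∈ Subgroup.center G,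
          v ^ 2 * c = s ^ 2 := by
        have hmem : ∀ v : G, (⟨v ^ 2 * c, Subgroup.mul_mem _ (hsq v) (hZ hcG)⟩ :
            Subgroup.center G) ∈ f.range → ∃ s ∈ Subgroup.center G, v ^ 2 * c = s ^ 2 := by
          rintro v ⟨⟨s, hs⟩, hs'⟩
          exact ⟨s, hs, (congrArg Subtype.val hs').symm⟩
        by_cases h1 : (⟨w ^ 2 * c, Subgroup.mul_mem _ (hsq w) (hZ hcG)⟩ :
            Subgroup.center G) ∈ f.range
        · exact ⟨w, hw, hmem w h1⟩
        by_cases h2 : (⟨y ^ 2 * c, Subgroup.mul_mem _ (hsq y) (hZ hcG)⟩ :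
            Subgroup.center G) ∈ f.range
        · exact ⟨y, hyZ, hmem y h2⟩
        refine ⟨w * y, hwyZ, hmem _ ?_⟩
        have h3 := (Subgroup.mul_mem_iff_of_index_two hidx
          (a := (⟨w ^ 2 * c, Subgroup.mul_mem _ (hsq w) (hZ hcG)⟩ : Subgroup.center G))
          (b := ⟨y ^ 2 * c, Subgroup.mul_mem _ (hsq y) (hZ hcG)⟩)).mpr (iff_of_false h1 h2)
        convert h3 using 1
        ext
        simp only [Subgroup.coe_mul]
        rw [hwy2]
        calc w ^ 2 * y ^ 2 * c * c = w ^ 2 * (y ^ 2 * c) * c := by group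
          _ = w ^ 2 * (c * y ^ 2) * c := by rw [hcZ (y ^ 2)]
          _ = _ := by group
      have hsZ := Subgroup.mem_center_iff.mp hs
      have hz2 : (v * s⁻¹) ^ 2 = c := by
        have h1 : Commute v s⁻¹ := (show Commute v s from hsZ v).inv_right
        rw [h1.mul_pow, inv_pow, ← hvs, mul_inv_rev]
        calc v ^ 2 * (c⁻¹ * (v ^ 2)⁻¹) = v ^ 2 * ((v ^ 2) * c)⁻¹ := by group
          _ = v ^ 2 * (c * v ^ 2)⁻¹ := by rw [hcZ]
          _ = c⁻¹ := by group
          _ = c := inv_eq_of_mul_eq_one_left hcc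
      have hzZ : v * s⁻¹ ∉ Subgroup.center G := by
        intro h1
        apply hvZ
        have := Subgroup.mul_mem _ h1 hs
        rwa [inv_mul_cancel_right] at this
      refine hfin (v * s⁻¹) (fun hh => hzZ (hZ hh)) fun x₀ hx₀ _ x hx => ?_
      have hx₀' := hx₀ hzZ
      subst hx₀'
      generalize v * s⁻¹ = z at *
      have h1 : z * x = x * z * c := by
        have h2 : z⁻¹ * x⁻¹ * z * x ∈ commutator G := by
          have : z⁻¹ * x⁻¹ * z * x = ⁅z⁻¹, x⁻¹⁆ := by rw [commutatorElement_def]; group
          rw [this]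
          exact Subgroup.commutator_mem_commutator (Subgroup.mem_top _) (Subgroup.mem_top _)
        rcases hcall _ h2 with h3 | h3
        · exfalso
          apply hx
          rw [Subgroup.mem_centralizer_singleton_iff]
          symm
          calc z * x = x * z * (z⁻¹ * x⁻¹ * z * x) := by group
            _ = _ := by rw [h3, mul_one]
        · rw [← h3]; group
      have h2 := Cfsg.Agent.Lib.PGroupOdd.mul_pow_of_comm h1 (hcZ x).symm (hcZ z).symm 2
      rw [show Nat.choose 2 2 = 1 from rfl, pow_one, hz2, mul_assoc, hcc, mul_one] at h2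
      exact h2
  · -- p odd
    have hpow : ∀ x y : G, (x * y) ^ p = x ^ p * y ^ p := by
      intro x y
      have h0 : y⁻¹ * x⁻¹ * y * x ∈ commutator G := by
        have : y⁻¹ * x⁻¹ * y * x = ⁅y⁻¹, x⁻¹⁆ := by rw [commutatorElement_def]; group
        rw [this]
        exact Subgroup.commutator_mem_commutator (Subgroup.mem_top _) (Subgroup.mem_top _)
      have hcZ := Subgroup.mem_center_iff.mp (hZ h0)
      have h1 := Cfsg.Agent.Lib.PGroupOdd.mul_pow_of_comm (x := x) (y := y)
        (c := y⁻¹ * x⁻¹ * y * x) (by group) (hcZ x).symm (hcZ y).symm p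
      have h2 : (y⁻¹ * x⁻¹ * y * x) ^ p = 1 := by
        have h3 : (⟨_, h0⟩ : commutator G) ^ Nat.card (commutator G) = 1 := pow_card_eq_one'
        rw [hcard] at h3
        exact congrArg Subtype.val h3
      obtain ⟨k, hk⟩ : p ∣ p.choose 2 := hp.dvd_choose_self (by norm_num) (by
        have := hp.two_le
        rcases hodd with ⟨m, hm⟩
        omega)
      rw [h1, hk, pow_mul, h2, one_pow, mul_one]
    let f : G →* G := MonoidHom.mk' (fun x => x ^ p) hpow
    have hrange : f.range ≤ Subgroup.center G := by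
      rintro _ ⟨x, rfl⟩
      exact pow_mem_center hZ hcard x
    have hker : ¬ (f.ker ≤ commutator G) := by
      intro h1
      have h2 : Nat.card f.ker ≤ p := hcard ▸ Subgroup.card_le_of_le h1
      have h3 := Subgroup.card_mul_index f.ker
      rw [Subgroup.index_ker] at h3
      have h4 : Nat.card f.range ≤ Nat.card (Subgroup.center G) := Subgroup.card_le_of_le hrange
      have h5 := card_center_le hp h hZ hcard hw
      have h6 : Nat.card f.ker * Nat.card f.range ≤ p * Nat.card (Subgroup.center G) :=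
        Nat.mul_le_mul h2 h4
      rw [h3] at h6
      have h7 : 0 < Nat.card (Subgroup.center G) := Nat.card_pos
      have h8 : p ^ 2 * Nat.card (Subgroup.center G) ≤ p * Nat.card (Subgroup.center G) :=
        h5.trans h6
      have h9 : p ^ 2 ≤ p := Nat.le_of_mul_le_mul_right h8 h7
      have := hp.two_le
      nlinarith
    obtain ⟨z, hz, hzG⟩ := SetLike.not_le_iff_exists.mp hker
    refine hfin z hzG fun x₀ _ _ x _ => ?_
    rw [hpow, show z ^ p = 1 from hz, mul_one]

/-- the orbit bound when the commutator subgroup has order `p` -/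
theorem orbits_le_of_card (hp : p.Prime) (h : ∀ d : ℕ, d ∣ Nat.card G → d ≠ 1 → p ≤ d)
    (hZ : commutator G ≤ Subgroup.center G) (hcard : Nat.card (commutator G) = p) :
    (Nat.card (MulAction.orbitRel.Quotient (MulAut G) G) : ℚ) ≤ Nat.card G / p := by
  classical
  obtain ⟨x₀, hx₀, z, hz, hzc, hzG, hpow⟩ := exists_z hp h hZ hcard
  have : Fintype G := Fintype.ofFinite G
  set C := Subgroup.centralizer ({x₀} : Set G) with hC
  have hidx : C.index = p := index_centralizer hp hZ hcard hx₀
  have hcC : (p : ℚ) * Nat.card C = Nat.card G := by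
    rw [← C.card_mul_index, hidx]; push_cast; ring
  have hcZ : (p : ℚ) ^ 2 * Nat.card (Subgroup.center G) ≤ Nat.card G := by
    exact_mod_cast card_center_le hp h hZ hcard hx₀
  have hpos : ∀ x : G, 0 < Nat.card (MulAction.orbit (MulAut G) x) := fun x => by
    have : Nonempty (MulAction.orbit (MulAut G) x) := ⟨⟨x, MulAction.mem_orbit_self x⟩⟩
    exact Nat.card_pos
  have h1 : ∀ x : G, x ∉ Subgroup.center G → p ≤ Nat.card (MulAction.orbit (MulAut G) x) := by
    intro x hx
    rw [← hcard]
    have h2 : ∀ u : commutator G, x * (u : G) ∈ MulAction.orbit (MulAut G) x := by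
      intro u
      obtain ⟨y, hy⟩ := exists_conj hp hZ hcard hx u.2
      exact ⟨MulAut.conj y, by rw [← hy]; rfl⟩
    exact Nat.card_le_card_of_injective
      (fun u : commutator G => (⟨x * (u : G), h2 u⟩ : MulAction.orbit (MulAut G) x))
      (fun a b hab => Subtype.ext (mul_left_cancel (congrArg Subtype.val hab)))
  have hp0 : (0 : ℚ) < p := by exact_mod_cast hp.pos
  rw [← sum_inv_orbit]
  have hle : ∀ x : G, (1 : ℚ) / Nat.card (MulAction.orbit (MulAut G) x) ≤
      (if x ∈ Subgroup.center G then 1 - 1 / (p : ℚ) else 0) +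
        (if x ∈ C then 1 / (p : ℚ) - 1 / (p : ℚ) ^ 2 else 0) + 1 / (p : ℚ) ^ 2 := by
    intro x
    have hpx : (0 : ℚ) < Nat.card (MulAction.orbit (MulAut G) x) := by exact_mod_cast hpos x
    by_cases hx : x ∈ Subgroup.center G
    · rw [if_pos hx, if_pos (Subgroup.center_le_centralizer _ hx)]
      have h2 : (1 : ℚ) / Nat.card (MulAction.orbit (MulAut G) x) ≤ 1 := by
        rw [div_le_one hpx]
        exact_mod_cast hpos x
      linarith
    · rw [if_neg hx]
      by_cases hxC : x ∈ C
      · rw [if_pos hxC]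
        have h2 : (1 : ℚ) / Nat.card (MulAction.orbit (MulAut G) x) ≤ 1 / p :=
          one_div_le_one_div_of_le hp0 (by exact_mod_cast h1 x hx)
        linarith
      · rw [if_neg hxC]
        have h2 : (1 : ℚ) / Nat.card (MulAction.orbit (MulAut G) x) ≤ 1 / (p : ℚ) ^ 2 :=
          one_div_le_one_div_of_le (by positivity)
            (by exact_mod_cast orbit_big hp h hZ hcard hx₀ hz hzc hzG hxC (hpow x hxC))
        linarith
  refine (Finset.sum_le_sum fun x _ => hle x).trans ?_
  rw [Finset.sum_add_distrib, Finset.sum_add_distrib, ← Finset.sum_filter, ← Finset.sum_filter,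
    Finset.sum_const, Finset.sum_const, Finset.sum_const, Finset.card_univ,
    ← Nat.card_eq_fintype_card]
  have hf : ∀ (H : Subgroup G) [DecidablePred fun x => x ∈ H],
      (Finset.univ.filter fun x => x ∈ H).card = Nat.card H := by
    intro H _
    rw [Nat.card_eq_fintype_card, Fintype.card_subtype]
  rw [hf, hf, nsmul_eq_mul, nsmul_eq_mul, nsmul_eq_mul, ← hcC]
  rw [← hcC] at hcZ
  have h2 : (2 : ℚ) ≤ p := by exact_mod_cast hp.two_le
  have hCpos : (0 : ℚ) ≤ Nat.card C := by positivity
  have hZpos : (0 : ℚ) ≤ Nat.card (Subgroup.center G) := by positivity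
  have h3 : (p : ℚ) * Nat.card (Subgroup.center G) ≤ Nat.card C := by
    have : (p : ℚ) * (p * Nat.card (Subgroup.center G)) ≤ p * Nat.card C := by
      calc _ = (p : ℚ) ^ 2 * Nat.card (Subgroup.center G) := by ring
        _ ≤ _ := hcZ
    exact le_of_mul_le_mul_left this hp0
  rw [show (p : ℚ) * Nat.card C / p = Nat.card C by field_simp]
  have h4 : (Nat.card (Subgroup.center G) : ℚ) * (1 - 1 / p) ≤ Nat.card C * (1 / p - 1 / p ^ 2) := by
    have h5 : (Nat.card (Subgroup.center G) : ℚ) * (1 - 1 / p) =
        (p * Nat.card (Subgroup.center G)) * (1 / p - 1 / p ^ 2) := by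
      field_simp
    rw [h5]
    apply mul_le_mul_of_nonneg_right h3
    rw [sub_nonneg]
    apply one_div_le_one_div_of_le hp0
    nlinarith
  have h6 : (Nat.card C : ℚ) * (1 / p - 1 / p ^ 2) + Nat.card C * (1 / p - 1 / p ^ 2) +
      p * Nat.card C * (1 / p ^ 2) ≤ Nat.card C := by
    have h7 : (Nat.card C : ℚ) * (1 / p - 1 / p ^ 2) + Nat.card C * (1 / p - 1 / p ^ 2) +
      p * Nat.card C * (1 / p ^ 2) = Nat.card C * ((3 * p - 2) / p ^ 2) := by
      field_simp
      ring
    rw [h7]
    have h8 : (3 * (p : ℚ) - 2) / p ^ 2 ≤ 1 := by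
      rw [div_le_one (by positivity)]
      nlinarith
    calc (Nat.card C : ℚ) * ((3 * p - 2) / p ^ 2) ≤ Nat.card C * 1 :=
        mul_le_mul_of_nonneg_left h8 hCpos
      _ = _ := mul_one _
  linarith

end

/-- A nonabelian group has at most `|G| / p` automorphism orbits. -/
theorem main {G : Type u} [Group G] [Finite G] {p : ℕ} (hp : p.Prime)
    (h : ∀ d : ℕ, d ∣ Nat.card G → d ≠ 1 → p ≤ d) (hne : commutator G ≠ ⊥) :
    (Nat.card (MulAction.orbitRel.Quotient (MulAut G) G) : ℚ) ≤ Nat.card G / p := by
  by_cases hcard : Nat.card (commutator G) = p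
  · exact orbits_le_of_card hp h (le_center_of_card hp h _ hcard) hcard
  have h1 : p < Nat.card (commutator G) := by
    refine lt_of_le_of_ne (h _ (Subgroup.card_subgroup_dvd_card _) ?_) (Ne.symm hcard)
    rw [Ne, Subgroup.card_eq_one]
    exact hne
  have h2 := class_bound hp.one_lt h
  have h3 : (Nat.card (MulAction.orbitRel.Quotient (MulAut G) G) : ℚ) ≤
      Nat.card (ConjClasses G) := by
    have h4 : Function.Surjective (fun c : ConjClasses G => Quotient.liftOn c
        (fun x => (Quotient.mk'' x : MulAction.orbitRel.Quotient (MulAut G) G))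
        (fun a b hab => by
          obtain ⟨y, hy⟩ := isConj_iff.mp hab
          rw [Quotient.eq'', MulAction.orbitRel_apply]
          refine ⟨MulAut.conj y⁻¹, ?_⟩
          change MulAut.conj y⁻¹ b = a
          rw [← hy, MulAut.conj_apply]
          group)) := by
      intro ω
      induction ω using Quotient.inductionOn' with
      | h x => exact ⟨ConjClasses.mk x, rfl⟩
    exact_mod_cast Nat.card_le_card_of_surjective _ h4
  refine (h3.trans h2).trans ?_
  have hp0 : (0 : ℚ) < p := by exact_mod_cast hp.pos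
  have h5 : ((p : ℚ) + 1) * (commutator G).index ≤ Nat.card G := by
    rw [← (commutator G).card_mul_index]
    push_cast
    apply mul_le_mul_of_nonneg_right _ (by positivity)
    exact_mod_cast h1
  rw [le_div_iff₀ hp0]
  have h6 : (((commutator G).index : ℚ) + ((Nat.card G : ℚ) - (commutator G).index) / p ^ 2) * p =
      ((commutator G).index * (p ^ 2 - 1) + Nat.card G) / p := by
    field_simp
    ring
  rw [h6, div_le_iff₀ hp0]
  have h7 : (1 : ℚ) ≤ p := by exact_mod_cast hp.one_lt.le
  nlinarith

end Cfsg.Agent.Lib.H10AutOrb
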