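import Mathlib
import Cfsg.Agent.Lib.FrobDvd
import Cfsg.Agent.Lib.ClassSizeCounting
import Cfsg.Agent.Lib.BlockOsima
import Cfsg.Agent.Lib.AmalgamCharP
import Cfsg.Agent.Lib.Simple168
import Cfsg.Agent.Lib.H23Nilp

set_option autoImplicit false
set_option linter.unusedSectionVars false

/-! A group with the class sizes of a nilpotent group is nilpotent (Cossey, Hawkes, Mann). -/

namespace Cfsg.Agent.Lib.H10ClassNil

open Subgroup Cfsg
open Cfsg.Agent.Lib.AmalgamCharP (isPGroup_pCore le_pCore)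

/-- the normal `p`-subgroup centralized by the `p'`-elements -/
def W (p : ℕ) (G : Type*) [Group G] : Subgroup G := pCore p G ⊓ centralizer {g : G | ¬ p ∣ orderOf g}

variable {G : Type*} [Group G] {p : ℕ}

instance pCore_normal : (pCore p G).Normal := by
  unfold pCore
  exact Subgroup.sSup_normal _ (fun N hN => hN.1)

instance W_normal : (W p G).Normal := by
  have h : (centralizer {g : G | ¬ p ∣ orderOf g}).Normal := by
    refine ⟨fun x hx g => ?_⟩
    rw [mem_centralizer_iff] at hx ⊢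
    intro y hy
    have h1 : ¬ p ∣ orderOf (g⁻¹ * y * g) := by
      have h2 : orderOf (g⁻¹ * y * g) = orderOf y := by
        have : g⁻¹ * y * g = MulAut.conj g⁻¹ y := by simp
        rw [this, MulEquiv.orderOf_eq]
      rw [h2]; exact hy
    have h3 := hx _ h1
    calc y * (g * x * g⁻¹) = g * ((g⁻¹ * y * g) * x) * g⁻¹ := by group
      _ = g * (x * (g⁻¹ * y * g)) * g⁻¹ := by rw [h3]
      _ = g * x * g⁻¹ * y := by group
  unfold W
  infer_instance

theorem W_isPGroup : IsPGroup p (W p G) := isPGroup_pCore.to_le inf_le_left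

theorem W_comm {w g : G} (hw : w ∈ W p G) (hg : ¬ p ∣ orderOf g) : g * w = w * g :=
  mem_centralizer_iff.1 hw.2 g hg

/-- `U = W Z(G)` -/
def U (p : ℕ) (G : Type*) [Group G] : Subgroup G := W p G ⊔ center G

instance U_normal : (U p G).Normal := by unfold U; infer_instance

theorem mem_U {x : G} : x ∈ U p G ↔ ∃ w ∈ W p G, ∃ z ∈ center G, w * z = x := mem_sup_of_normal_left

theorem isPElt_iff {x : G} : IsPGroup p (zpowers x) ↔ ∃ k, x ^ p ^ k = 1 := by
  constructor
  · intro h
    obtain ⟨k, hk⟩ := h ⟨x, mem_zpowers x⟩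
    exact ⟨k, congrArg Subtype.val hk⟩
  · rintro ⟨k, hk⟩ ⟨y, hy⟩
    obtain ⟨j, rfl⟩ := hy
    refine ⟨k, Subtype.ext ?_⟩
    change (x ^ j) ^ p ^ k = 1
    rw [← zpow_natCast, ← zpow_mul, mul_comm, zpow_mul, zpow_natCast, hk, one_zpow]

theorem center_mem_W {z : G} (hz : z ∈ center G) {k : ℕ} (hk : z ^ p ^ k = 1) : z ∈ W p G := by
  refine ⟨?_, ?_⟩
  · have hn : (zpowers z).Normal := by
      refine ⟨fun x hx g => ?_⟩
      obtain ⟨j, rfl⟩ := hx
      have h1 : z ^ j ∈ center G := zpow_mem hz j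
      have h2 : g * z ^ j * g⁻¹ = z ^ j := by
        rw [← (mem_center_iff.1 h1 g).symm, mul_inv_cancel_right]
      change g * z ^ j * g⁻¹ ∈ zpowers z
      rw [h2]
      exact ⟨j, rfl⟩
    exact le_pCore hn (isPElt_iff.2 ⟨k, hk⟩) (mem_zpowers z)
  · refine mem_centralizer_iff.2 ?_
    intro g _
    exact mem_center_iff.1 hz g

/-- `p`-power class size -/
def PIdx (p : ℕ) (x : G) : Prop := ∃ k, (centralizer ({x} : Set G)).index = p ^ k

theorem centralizer_le_of_mem_zpowers {x y : G} (hy : y ∈ zpowers x) :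
    centralizer ({x} : Set G) ≤ centralizer ({y} : Set G) := by
  intro g hg
  rw [mem_centralizer_singleton_iff] at hg ⊢
  obtain ⟨j, rfl⟩ := hy
  exact (Commute.zpow_right hg j).eq

variable [Finite G] [hp : Fact p.Prime]

theorem PIdx.of_zpowers {x y : G} (hx : PIdx p x) (hy : y ∈ zpowers x) : PIdx p y := by
  obtain ⟨k, hk⟩ := hx
  have h1 := index_dvd_of_le (centralizer_le_of_mem_zpowers hy)
  rw [hk] at h1
  obtain ⟨j, -, hj⟩ := (Nat.dvd_prime_pow hp.out).1 h1
  exact ⟨j, hj⟩

theorem top_of_sylow {K : Subgroup G} (P : Sylow p G) (hP : (P : Subgroup G) ≤ K) {k : ℕ} (hK : K.index ∣ p ^ k) :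
    K = ⊤ := by
  rw [← index_eq_one]
  have h1 : K.index ∣ (P : Subgroup G).index := index_dvd_of_le hP
  obtain ⟨j, -, hj⟩ := (Nat.dvd_prime_pow hp.out).1 hK
  rcases Nat.eq_zero_or_pos j with h0 | h0
  · rw [hj, h0, pow_zero]
  · exfalso
    apply P.not_dvd_index
    exact ((dvd_pow_self p h0.ne').trans (hj ▸ dvd_rfl)).trans h1

theorem central_of_sylow {y : G} (P : Sylow p G) (hP : (P : Subgroup G) ≤ centralizer ({y} : Set G)) (hy : PIdx p y) :
    y ∈ center G := by
  obtain ⟨k, hk⟩ := hy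
  have h1 := top_of_sylow P hP (k := k) (by rw [hk])
  rw [mem_center_iff]
  intro g
  have : g ∈ centralizer ({y} : Set G) := by rw [h1]; trivial
  exact mem_centralizer_singleton_iff.1 this

/-- (A) -/
theorem PIdx.mul_U {x u : G} (hx : PIdx p x) (hu : u ∈ U p G) : PIdx p (x * u) := by
  obtain ⟨k, hk⟩ := hx
  obtain ⟨w, hw, z, hz, rfl⟩ := mem_U.1 hu
  have key : ∀ r : ℕ, r.Prime → r ∣ (centralizer ({x * (w * z)} : Set G)).index → r = p := by
    intro r hr hrd
    by_contra hne
    have : Fact r.Prime := ⟨hr⟩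
    have h1 : ¬ r ∣ (centralizer ({x} : Set G)).index := by
      rw [hk]
      intro h
      exact hne ((Nat.prime_dvd_prime_iff_eq hr hp.out).1 (hr.dvd_of_dvd_pow h))
    obtain ⟨Q, hQ⟩ := ClassSizeCounting.exists_sylow_le_centralizer r x h1
    refine ClassSizeCounting.not_dvd_of_sylow_le_centralizer r _ Q ?_ hrd
    intro g hg
    rw [mem_centralizer_singleton_iff]
    have h2 := mem_centralizer_singleton_iff.1 (hQ hg)
    have h3 : ¬ p ∣ orderOf g := by
      intro h
      obtain ⟨j, hj⟩ := (IsPGroup.iff_orderOf.1 Q.2) ⟨g, hg⟩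
      rw [orderOf_mk] at hj
      rw [hj] at h
      exact hne ((Nat.prime_dvd_prime_iff_eq hp.out hr).1 (hp.out.dvd_of_dvd_pow h)).symm
    have h4 : g * w = w * g := W_comm hw h3
    have h5 : g * z = z * g := mem_center_iff.1 hz g
    calc g * (x * (w * z)) = (g * x) * (w * z) := by group
      _ = x * (g * w) * z := by rw [h2]; group
      _ = x * w * (g * z) := by rw [h4]; group
      _ = x * (w * z) * g := by rw [h5]; group
  exact ⟨_, Nat.eq_prime_pow_of_unique_prime_dvd index_ne_zero_of_finite (fun {r} hr hrd => key r hr hrd)⟩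

theorem conj_pow_eq {g s c : G} (h : g * s * g⁻¹ = s * c) (hgc : g * c = c * g) (i : ℕ) :
    g ^ i * s * (g ^ i)⁻¹ = s * c ^ i := by
  induction i with
  | zero => simp
  | succ n ih =>
    have hgcn : g * c ^ n = c ^ n * g := (Commute.pow_right hgc n).eq
    have h2 : g * c ^ n * g⁻¹ = c ^ n := by rw [hgcn, mul_inv_cancel_right]
    calc g ^ (n + 1) * s * (g ^ (n + 1))⁻¹ = g * (g ^ n * s * (g ^ n)⁻¹) * g⁻¹ := by
          rw [pow_succ']; group
      _ = g * (s * c ^ n) * g⁻¹ := by rw [ih]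
      _ = (g * s * g⁻¹) * (g * c ^ n * g⁻¹) := by group
      _ = (s * c) * (c ^ n) := by rw [h, h2]
      _ = s * c ^ (n + 1) := by rw [pow_succ', mul_assoc]

theorem eq_one_of_pow {c : G} {m k : ℕ} (hm : ¬ p ∣ m) (h1 : c ^ m = 1) (h2 : c ^ p ^ k = 1) : c = 1 := by
  have h3 : orderOf c ∣ Nat.gcd m (p ^ k) := Nat.dvd_gcd (orderOf_dvd_of_pow_eq_one h1) (orderOf_dvd_of_pow_eq_one h2)
  have h4 : Nat.Coprime m (p ^ k) := Nat.Coprime.pow_right k ((Nat.Prime.coprime_iff_not_dvd hp.out).2 hm).symm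
  rw [h4] at h3
  exact orderOf_eq_one_iff.1 (Nat.dvd_one.1 h3)

theorem pow_eq_one_of_mem {H : Subgroup G} (hH : IsPGroup p H) {x : G} (hx : x ∈ H) : ∃ k, x ^ p ^ k = 1 := by
  obtain ⟨k, hk⟩ := hH ⟨x, hx⟩
  exact ⟨k, congrArg Subtype.val hk⟩

/-- (B) an element of `p`-power class size, central modulo `U`, lies in `U`. -/
theorem mem_U_of_central {x : G} (hx : PIdx p x) (hc : ∀ g : G, (g : G ⧸ U p G) * (x : G ⧸ U p G) = x * g) :
    x ∈ U p G := by
  obtain ⟨P⟩ : Nonempty (Sylow p G) := inferInstance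
  obtain ⟨u, s, hus, hcomm, hu, hs, huz, hsz⟩ := BlockOsima.exists_p_decomp (p := p) hp.out (g := x) (orderOf_pos x).ne'
  have hcen : ∀ y ∈ zpowers x, ∀ g : G, ∃ c ∈ U p G, g * y * g⁻¹ = y * c := by
    rintro y ⟨j, rfl⟩ g
    refine ⟨(x ^ j)⁻¹ * (g * x ^ j * g⁻¹), ?_, by group⟩
    rw [← QuotientGroup.eq]
    have h1 : Commute (g : G ⧸ U p G) ((x : G ⧸ U p G) ^ j) := (show Commute _ _ from hc g).zpow_right j
    have h2 : ((x ^ j : G) : G ⧸ U p G) = (x : G ⧸ U p G) ^ j := rfl
    rw [QuotientGroup.mk_mul, QuotientGroup.mk_mul, QuotientGroup.mk_inv, h2, h1.eq, mul_inv_cancel_right]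
  -- the p'-part is central
  have hsc : s ∈ center G := by
    refine central_of_sylow P ?_ (hx.of_zpowers hsz)
    intro g hg
    obtain ⟨c, hcU, hgs⟩ := hcen s hsz g
    obtain ⟨w, hw, z, hz, rfl⟩ := mem_U.1 hcU
    set m := orderOf s with hm
    have hsm : s ^ m = 1 := pow_orderOf_eq_one s
    have hsw : s * w = w * s := W_comm hw hs
    have hzz : ∀ a : G, a * z = z * a := fun a => mem_center_iff.1 hz a
    have hwz : Commute w z := hzz w
    have hswz : Commute s (w * z) := by
      change s * (w * z) = w * z * s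
      rw [← mul_assoc, hsw, mul_assoc, hzz s, ← mul_assoc, mul_assoc]
    have h1 : (w * z) ^ m = 1 := by
      have h2 : (g * s * g⁻¹) ^ m = 1 := by rw [conj_pow, hsm, mul_one, mul_inv_cancel]
      rw [hgs, hswz.mul_pow, hsm, one_mul] at h2
      exact h2
    obtain ⟨k, hk⟩ := pow_eq_one_of_mem W_isPGroup hw
    -- w is central
    have hwc : w ∈ center G := by
      have h2 : w ^ m ∈ center G := by
        rw [hwz.mul_pow] at h1
        have h3 : w ^ m = (z ^ m)⁻¹ := eq_inv_of_mul_eq_one_left h1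
        rw [h3]
        exact inv_mem (pow_mem hz m)
      have h3 : m.Coprime (orderOf w) := by
        obtain ⟨i, -, hi⟩ := (Nat.dvd_prime_pow hp.out).1 (orderOf_dvd_of_pow_eq_one hk)
        rw [hi]
        exact Nat.Coprime.pow_right i ((Nat.Prime.coprime_iff_not_dvd hp.out).2 hs).symm
      obtain ⟨i, hi⟩ := exists_pow_eq_self_of_coprime h3
      rw [← hi]
      exact pow_mem h2 i
    have hgc : g * (w * z) = w * z * g := mem_center_iff.1 (mul_mem hwc hz) g
    have hord := conj_pow_eq hgs hgc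
    obtain ⟨j, hj⟩ := pow_eq_one_of_mem P.2 hg
    have h2 : (w * z) ^ p ^ j = 1 := by
      have h3 := hord (p ^ j)
      rw [hj, inv_one, mul_one, one_mul] at h3
      exact (mul_eq_left.1 h3.symm)
    have h3 : w * z = 1 := eq_one_of_pow hs h1 h2
    rw [h3, mul_one] at hgs
    rw [mem_centralizer_singleton_iff]
    calc g * s = g * s * g⁻¹ * g := by group
      _ = s * g := by rw [hgs]
  -- the p-part lies in W
  obtain ⟨l, hl⟩ : ∃ l, u ^ p ^ l = 1 := ⟨_, by rw [← hu]; exact pow_orderOf_eq_one u⟩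
  have hup : IsPGroup p (zpowers u) := isPElt_iff.2 ⟨l, hl⟩
  have hXp : IsPGroup p (zpowers u ⊔ W p G : Subgroup G) := hup.to_sup_of_normal_right W_isPGroup
  have hd : ∀ g : G, ∃ d ∈ W p G, g * u * g⁻¹ = u * d := by
    intro g
    obtain ⟨c, hcU, hgs⟩ := hcen u huz g
    obtain ⟨w, hw, z, hz, rfl⟩ := mem_U.1 hcU
    refine ⟨w * z, mul_mem hw ?_, hgs⟩
    obtain ⟨k, hk⟩ := pow_eq_one_of_mem hXp (mul_mem (mem_sup_left (mem_zpowers u)) (mem_sup_right hw) : u * w ∈ _)
    apply center_mem_W hz (k := k + l)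
    have h1 : (g * u * g⁻¹) ^ p ^ (k + l) = 1 := by
      rw [conj_pow, pow_add, mul_comm (p ^ k), pow_mul, hl, one_pow, mul_one, mul_inv_cancel]
    have h2 : Commute (u * w) z := mem_center_iff.1 hz (u * w)
    rw [hgs, ← mul_assoc, h2.mul_pow, pow_add, pow_mul (u * w), hk, one_pow, one_mul, ← pow_add] at h1
    exact h1
  have hXn : (zpowers u ⊔ W p G : Subgroup G).Normal := by
    refine ⟨fun y hy g => ?_⟩
    obtain ⟨a, ha, w, hw, rfl⟩ := mem_sup_of_normal_right.1 hy
    obtain ⟨j, rfl⟩ := ha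
    obtain ⟨d, hdW, hgd⟩ := hd g
    have h1 : g * (u ^ j * w) * g⁻¹ = (g * u * g⁻¹) ^ j * (g * w * g⁻¹) := by
      rw [conj_zpow]; group
    change g * (u ^ j * w) * g⁻¹ ∈ _
    rw [h1, hgd]
    exact mul_mem (zpow_mem (mul_mem (mem_sup_left (mem_zpowers u)) (mem_sup_right hdW)) j)
      (mem_sup_right (W_normal.conj_mem w hw g))
  have huW : u ∈ W p G := by
    refine ⟨le_pCore hXn hXp (mem_sup_left (mem_zpowers u)), mem_centralizer_iff.2 ?_⟩
    intro g hg
    obtain ⟨d, hdW, hgd⟩ := hd g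
    have h1 := conj_pow_eq hgd (W_comm hdW hg) (orderOf g)
    rw [pow_orderOf_eq_one, inv_one, mul_one, one_mul] at h1
    have h2 : d ^ orderOf g = 1 := mul_eq_left.1 h1.symm
    obtain ⟨k, hk⟩ := pow_eq_one_of_mem W_isPGroup hdW
    have h3 : d = 1 := eq_one_of_pow hg h2 hk
    rw [h3, mul_one] at hgd
    calc g * u = g * u * g⁻¹ * g := by group
      _ = u * g := by rw [hgd]
  rw [← hus]
  exact mem_U.2 ⟨u, huW, s, hsc, rfl⟩

/-! ### counting -/

/-- The elements of `p`-power class size form a union of cosets of `U`. -/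
theorem card_SP (G : Type*) [Group G] [Finite G] (p : ℕ) [Fact p.Prime] :
    Nat.card {x : G // PIdx p x} = Nat.card {q : G ⧸ U p G // ∃ x : G, PIdx p x ∧ (x : G ⧸ U p G) = q} * Nat.card (U p G) := by
  apply FrobDvd.card_eq_mul_of_fibers (fun x : {x : G // PIdx p x} =>
    (⟨(x.1 : G ⧸ U p G), x.1, x.2, rfl⟩ : {q : G ⧸ U p G // ∃ x : G, PIdx p x ∧ (x : G ⧸ U p G) = q}))
  rintro ⟨q, x, hx, rfl⟩
  refine Nat.card_congr ⟨fun y => ⟨x⁻¹ * y.1.1, ?_⟩, fun u => ⟨⟨x * u, hx.mul_U u.2⟩, ?_⟩, ?_, ?_⟩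
  · rw [← QuotientGroup.eq]
    exact (congrArg Subtype.val y.2).symm
  · apply Subtype.ext
    change ((x * (u : G) : G) : G ⧸ U p G) = x
    rw [QuotientGroup.mk_mul, (QuotientGroup.eq_one_iff _).2 u.2, mul_one]
  · intro y
    apply Subtype.ext
    apply Subtype.ext
    change x * (x⁻¹ * y.1.1) = y.1.1
    group
  · intro u
    apply Subtype.ext
    change x⁻¹ * (x * (u : G)) = u
    group

/-- (C1) the number of cosets is `1` modulo `p`. -/
theorem card_quot_modEq (G : Type*) [Group G] [Finite G] (p : ℕ) [hp : Fact p.Prime] :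
    Nat.card {q : G ⧸ U p G // ∃ x : G, PIdx p x ∧ (x : G ⧸ U p G) = q} ≡ 1 [MOD p] := by
  classical
  obtain ⟨P⟩ : Nonempty (Sylow p G) := inferInstance
  set X := {q : G ⧸ U p G // ∃ x : G, PIdx p x ∧ (x : G ⧸ U p G) = q} with hX
  let _ : MulAction (P : Subgroup G) X :=
    { smul := fun g q => ⟨((g : G) : G ⧸ U p G) * q.1 * ((g : G) : G ⧸ U p G)⁻¹, by
        obtain ⟨q, x, hx, rfl⟩ := q
        refine ⟨(g : G) * x * (g : G)⁻¹, ?_, rfl⟩
        obtain ⟨k, hk⟩ := hx
        refine ⟨k, ?_⟩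
        have h1 := Cfsg.Agent.Lib.Simple168.card_centralizer_conj x (g : G)
        have h2 := (centralizer ({x} : Set G)).card_mul_index
        have h3 := (centralizer ({(g : G) * x * (g : G)⁻¹} : Set G)).card_mul_index
        rw [h1] at h3
        have h4 : 0 < Nat.card (centralizer ({x} : Set G)) := Nat.card_pos
        rw [← hk]
        exact Nat.eq_of_mul_eq_mul_left h4 (h3.trans h2.symm)⟩
      one_smul := fun q => Subtype.ext (by
        change ((1 : G) : G ⧸ U p G) * q.1 * ((1 : G) : G ⧸ U p G)⁻¹ = q.1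
        rw [QuotientGroup.mk_one, one_mul, inv_one, mul_one])
      mul_smul := fun a b q => Subtype.ext (by
        change (((a : G) * (b : G) : G) : G ⧸ U p G) * q.1 * (((a : G) * (b : G) : G) : G ⧸ U p G)⁻¹
          = ((a : G) : G ⧸ U p G) * (((b : G) : G ⧸ U p G) * q.1 * ((b : G) : G ⧸ U p G)⁻¹) * ((a : G) : G ⧸ U p G)⁻¹
        rw [QuotientGroup.mk_mul, mul_inv_rev]
        simp only [mul_assoc]) }
  have h1 := P.2.card_modEq_card_fixedPoints X
  have h2 : Nat.card (MulAction.fixedPoints (P : Subgroup G) X) = 1 := by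
    rw [Nat.card_eq_one_iff_unique]
    have h1idx : PIdx p (1 : G) := ⟨0, by
      rw [pow_zero, index_eq_one, eq_top_iff]
      intro g _
      rw [mem_centralizer_singleton_iff, one_mul, mul_one]⟩
    have key : ∀ q : X, q ∈ MulAction.fixedPoints (P : Subgroup G) X → q.1 = 1 := by
      rintro ⟨q, x, hx, rfl⟩ hq
      change (x : G ⧸ U p G) = 1
      rw [QuotientGroup.eq_one_iff]
      apply mem_U_of_central hx
      -- the elements commuting with x modulo U
      set K : Subgroup G := (centralizer ({(x : G ⧸ U p G)} : Set (G ⧸ U p G))).comap (QuotientGroup.mk' (U p G)) with hK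
      have hPK : (P : Subgroup G) ≤ K := by
        intro g hg
        rw [hK, mem_comap, mem_centralizer_singleton_iff]
        have h3 := congrArg Subtype.val (hq ⟨g, hg⟩)
        have h4 : (g : G ⧸ U p G) * (x : G ⧸ U p G) * (g : G ⧸ U p G)⁻¹ = x := h3
        change (g : G ⧸ U p G) * (x : G ⧸ U p G) = x * g
        rw [← mul_inv_eq_iff_eq_mul, h4]
      have hCK : centralizer ({x} : Set G) ≤ K := by
        intro g hg
        rw [hK, mem_comap, mem_centralizer_singleton_iff]
        rw [mem_centralizer_singleton_iff] at hg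
        change (g : G ⧸ U p G) * (x : G ⧸ U p G) = x * g
        rw [← QuotientGroup.mk_mul, hg, QuotientGroup.mk_mul]
      obtain ⟨k, hk⟩ := hx
      have htop := top_of_sylow P hPK (k := k) (by rw [← hk]; exact index_dvd_of_le hCK)
      intro g
      have hg : g ∈ K := by rw [htop]; trivial
      rw [hK, mem_comap, mem_centralizer_singleton_iff] at hg
      exact hg
    refine ⟨⟨fun a b => Subtype.ext (Subtype.ext ((key _ a.2).trans (key _ b.2).symm))⟩, ⟨⟨⟨1, 1, h1idx, rfl⟩, ?_⟩⟩⟩
    intro g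
    apply Subtype.ext
    change ((g : G) : G ⧸ U p G) * 1 * ((g : G) : G ⧸ U p G)⁻¹ = 1
    rw [mul_one, mul_inv_cancel]
  rwa [h2] at h1

/-- (C) if the order of a Sylow `p`-subgroup divides the number of elements of `p`-power class size, then the Sylow
`p`-subgroup is normal. -/
theorem sylow_normal (P : Sylow p G) (h : Nat.card (P : Subgroup G) ∣ Nat.card {x : G // PIdx p x}) :
    (P : Subgroup G).Normal := by
  have h1 := card_quot_modEq G p
  rw [card_SP] at h
  have hnd : ¬ p ∣ Nat.card {q : G ⧸ U p G // ∃ x : G, PIdx p x ∧ (x : G ⧸ U p G) = q} := by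
    intro hd
    have h2 : (1 : ℕ) ≡ 0 [MOD p] := h1.symm.trans ((Nat.modEq_zero_iff_dvd).2 hd)
    exact hp.out.one_lt.ne' (Nat.dvd_one.1 ((Nat.modEq_zero_iff_dvd).1 h2))
  obtain ⟨k, hk⟩ := P.2.exists_card_eq
  have hcop : (Nat.card (P : Subgroup G)).Coprime
      (Nat.card {q : G ⧸ U p G // ∃ x : G, PIdx p x ∧ (x : G ⧸ U p G) = q}) := by
    rw [hk]
    exact Nat.Coprime.pow_left k ((Nat.Prime.coprime_iff_not_dvd hp.out).2 hnd)
  have hdU := hcop.dvd_of_dvd_mul_left h
  -- a Sylow subgroup inside U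
  rw [hk] at hdU
  obtain ⟨R, hR⟩ := Sylow.exists_subgroup_card_pow_prime p hdU
  have hRp : IsPGroup p (R.map (U p G).subtype) := (IsPGroup.of_card hR).map _
  have hRc : Nat.card (R.map (U p G).subtype) = p ^ k := by
    rw [Subgroup.card_map_of_injective (U p G).subtype_injective, hR]
  obtain ⟨Q, hQ⟩ := hRp.exists_le_sylow
  have hQc : Nat.card (Q : Subgroup G) = p ^ k := by rw [← hk, Q.card_eq_multiplicity, P.card_eq_multiplicity]
  have hQU : (Q : Subgroup G) ≤ U p G := by
    have h2 : R.map (U p G).subtype = Q := eq_of_le_of_card_ge hQ (by rw [hRc, hQc])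
    rw [← h2]
    exact map_subtype_le _
  obtain ⟨g, hg⟩ := MulAction.exists_smul_eq G Q P
  have hPU : (P : Subgroup G) ≤ U p G := by
    intro x hx
    rw [← hg, Sylow.smul_def] at hx
    obtain ⟨y, hy, rfl⟩ := hx
    exact U_normal.conj_mem y (hQU hy) g
  have hPW : (P : Subgroup G) ≤ W p G := by
    intro x hx
    obtain ⟨w, hw, z, hz, hwz⟩ := mem_U.1 (hPU hx)
    have hX : IsPGroup p ((P : Subgroup G) ⊔ W p G : Subgroup G) := P.2.to_sup_of_normal_right W_isPGroup
    have hzX : z ∈ ((P : Subgroup G) ⊔ W p G : Subgroup G) := by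
      have h3 : z = w⁻¹ * x := by rw [← hwz]; group
      rw [h3]
      exact mul_mem (inv_mem (mem_sup_right hw)) (mem_sup_left hx)
    obtain ⟨j, hj⟩ := pow_eq_one_of_mem hX hzX
    rw [← hwz]
    exact mul_mem hw (center_mem_W hz hj)
  have hPeq : (P : Subgroup G) = W p G := by
    apply le_antisymm hPW
    exact W_isPGroup.le_sylow_of_normal P
  rw [hPeq]
  infer_instance

/-- (E) in a nilpotent group. -/
theorem dvd_of_nilpotent [Group.IsNilpotent G] (P : Sylow p G) :
    Nat.card (P : Subgroup G) ∣ Nat.card {x : G // PIdx p x} := by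
  rw [card_SP]
  apply Dvd.dvd.mul_left
  apply card_dvd_of_le
  intro x hx
  apply mem_U.2
  refine ⟨x, ⟨?_, ?_⟩, 1, one_mem _, mul_one x⟩
  · have hn : (P : Subgroup G).Normal := Sylow.normal_of_all_max_subgroups_normal
      (fun H hH => NormalizerCondition.normal_of_coatom H Group.normalizerCondition_of_isNilpotent hH) P
    exact le_pCore hn P.2 hx
  · refine mem_centralizer_iff.2 ?_
    intro g hg
    obtain ⟨k, hk⟩ := pow_eq_one_of_mem P.2 hx
    have h1 : (orderOf g).Coprime (orderOf x) := by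
      obtain ⟨i, -, hi⟩ := (Nat.dvd_prime_pow hp.out).1 (orderOf_dvd_of_pow_eq_one hk)
      rw [hi]
      exact Nat.Coprime.pow_right i ((Nat.Prime.coprime_iff_not_dvd hp.out).2 hg).symm
    exact H23Nilp.commute_of_coprime_orderOf G g x h1

/-! ### class sizes -/

/-- the size of the class of an element -/
noncomputable def cs (x : G) : ℕ := Nat.card (ConjClasses.mk x).carrier

theorem card_cs (k : ℕ) : Nat.card {x : G // cs x = k} = Nat.card {C : ConjClasses G // Nat.card C.carrier = k} * k := by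
  apply FrobDvd.card_eq_mul_of_fibers (fun x : {x : G // cs x = k} =>
    (⟨ConjClasses.mk x.1, x.2⟩ : {C : ConjClasses G // Nat.card C.carrier = k}))
  rintro ⟨C, hC⟩
  have : Nat.card {a : {x : G // cs x = k} // (⟨ConjClasses.mk a.1, a.2⟩ : {C : ConjClasses G // Nat.card C.carrier = k}) = ⟨C, hC⟩}
      = Nat.card C.carrier := by
    refine Nat.card_congr ⟨fun a => ⟨a.1.1, ?_⟩, fun y => ⟨⟨y.1, ?_⟩, ?_⟩, fun a => rfl, fun y => rfl⟩
    · rw [ConjClasses.mem_carrier_iff_mk_eq]
      exact congrArg Subtype.val a.2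
    · have h1 := (ConjClasses.mem_carrier_iff_mk_eq).1 y.2
      rw [cs, h1, hC]
    · apply Subtype.ext
      exact (ConjClasses.mem_carrier_iff_mk_eq).1 y.2
  rw [this, hC]

theorem cs_le (x : G) : cs x ≤ Nat.card G :=
  Nat.card_le_card_of_injective (fun y : (ConjClasses.mk x).carrier => (y : G)) Subtype.val_injective

/-- counting elements by class size -/
theorem card_eq_sum (Q : ℕ → Prop) [DecidablePred Q] (N : ℕ) (hN : Nat.card G ≤ N) :
    Nat.card {x : G // Q (cs x)} = ∑ k ∈ Finset.range (N + 1), if Q k then Nat.card {x : G // cs x = k} else 0 := by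
  classical
  have := Fintype.ofFinite G
  rw [Nat.card_eq_fintype_card, Fintype.card_subtype,
    Finset.card_eq_sum_card_fiberwise (f := fun x : G => cs x) (t := Finset.range (N + 1))]
  · apply Finset.sum_congr rfl
    intro k _
    split_ifs with h
    · rw [Nat.card_eq_fintype_card, Fintype.card_subtype]
      congr 1
      ext x
      simp only [Finset.mem_filter, Finset.mem_univ, true_and, and_iff_right_iff_imp]
      rintro rfl
      exact h
    · rw [Finset.card_eq_zero, Finset.eq_empty_iff_forall_notMem]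
      intro x hx
      simp only [Finset.mem_filter, Finset.mem_univ, true_and] at hx
      apply h
      rw [← hx.2]; exact hx.1
  · intro x _
    have h1 : cs x < N + 1 := Nat.lt_succ_of_le ((cs_le x).trans hN)
    exact Finset.mem_coe.2 (Finset.mem_range.2 h1)

theorem pIdx_iff (x : G) : PIdx p x ↔ ∃ k, cs x = p ^ k := by
  unfold PIdx cs
  rw [FrobDvd.card_class]

theorem main {G H : Type*} [Group G] [Finite G] [Group H] [Finite H]
    (hH : Group.IsNilpotent H)
    (h : ∀ k : ℕ, Nat.card {C : ConjClasses G // Nat.card C.carrier = k} = Nat.card {C : ConjClasses H // Nat.card C.carrier = k}) :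
    Group.IsNilpotent G := by
  classical
  have hcs : ∀ k, Nat.card {x : G // cs x = k} = Nat.card {x : H // cs x = k} := by
    intro k
    rw [card_cs, card_cs, h k]
  have hQ : ∀ (Q : ℕ → Prop), Nat.card {x : G // Q (cs x)} = Nat.card {x : H // Q (cs x)} := by
    intro Q
    rw [card_eq_sum Q (max (Nat.card G) (Nat.card H)) (le_max_left _ _),
      card_eq_sum Q (max (Nat.card G) (Nat.card H)) (le_max_right _ _)]
    simp only [hcs]
  have hcard : Nat.card G = Nat.card H := by
    have h1 := hQ (fun _ => True)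
    rw [Nat.card_congr (Equiv.subtypeUnivEquiv (fun _ => trivial)), Nat.card_congr (Equiv.subtypeUnivEquiv (fun _ => trivial))] at h1
    exact h1
  apply (Group.isNilpotent_of_finite_tfae.out 0 3 rfl rfl).2
  intro p hp P
  apply sylow_normal P
  obtain ⟨R⟩ : Nonempty (Sylow p H) := inferInstance
  have h1 : Nat.card (P : Subgroup G) = Nat.card (R : Subgroup H) := by
    rw [P.card_eq_multiplicity, R.card_eq_multiplicity, hcard]
  have h2 : Nat.card {x : G // PIdx p x} = Nat.card {x : H // PIdx p x} := by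
    have h3 := hQ (fun n => ∃ k, n = p ^ k)
    have e1 : Nat.card {x : G // PIdx p x} = Nat.card {x : G // ∃ k, cs x = p ^ k} :=
      Nat.card_congr (Equiv.subtypeEquivRight fun x => pIdx_iff x)
    have e2 : Nat.card {x : H // PIdx p x} = Nat.card {x : H // ∃ k, cs x = p ^ k} :=
      Nat.card_congr (Equiv.subtypeEquivRight fun x => pIdx_iff x)
    rw [e1, e2]
    exact h3
  rw [h1, h2]
  exact dvd_of_nilpotent R

end Cfsg.Agent.Lib.H10ClassNil
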