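import Mathlib

/-!
Covering the `p`-elements of a group generated by `p`-elements by proper subgroups.
-/

set_option autoImplicit false

namespace Cfsg.Agent.Lib.H10CoverP

universe u

/-- the set of elements of `p`-power order -/
def pElts (p : ℕ) (G : Type*) [Group G] : Set G := {g : G | ∃ k : ℕ, orderOf g = p ^ k}

theorem card_mul_le {G : Type*} [Group G] [Finite G] {p : ℕ} [hp : Fact p.Prime] (hG : IsPGroup p G)
    {K : Subgroup G} (hK : K ≠ ⊤) : p * Nat.card K ≤ Nat.card G := by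
  rw [← K.card_mul_index, mul_comm]
  apply Nat.mul_le_mul_left
  obtain ⟨k, hk⟩ := hG.index K
  rw [hk]
  rcases k with _ | k
  · rw [pow_zero, Subgroup.index_eq_one] at hk
    exact absurd hk hK
  · exact Nat.le_self_pow (Nat.succ_ne_zero k) p

theorem base {G : Type*} [Group G] [Finite G] {p : ℕ} [hp : Fact p.Prime] (hG : IsPGroup p G)
    (𝒦 : Finset (Subgroup G)) (h𝒦 : ∀ K ∈ 𝒦, K ≠ ⊤) (hcov : ∀ g : G, ∃ K ∈ 𝒦, g ∈ K) :
    p + 1 ≤ 𝒦.card := by
  classical
  by_contra hlt
  have : Fintype G := Fintype.ofFinite G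
  have h1 : (Finset.univ.erase (1 : G)) ⊆ 𝒦.biUnion fun K =>
      (Finset.univ.filter fun g => g ∈ K).erase 1 := by
    intro g hg
    obtain ⟨K, hK, hgK⟩ := hcov g
    rw [Finset.mem_biUnion]
    refine ⟨K, hK, ?_⟩
    rw [Finset.mem_erase, Finset.mem_filter]
    exact ⟨(Finset.mem_erase.mp hg).1, Finset.mem_univ _, hgK⟩
  have h2 := (Finset.card_le_card h1).trans Finset.card_biUnion_le
  rw [Finset.card_erase_of_mem (Finset.mem_univ _), Finset.card_univ, ← Nat.card_eq_fintype_card]
    at h2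
  have h3 : ∀ K ∈ 𝒦, p * ((Finset.univ.filter fun g => g ∈ K).erase 1).card ≤ Nat.card G - p := by
    intro K hK
    rw [Finset.card_erase_of_mem (by simp)]
    have h4 : (Finset.univ.filter fun g => g ∈ K).card = Nat.card K := by
      rw [Nat.card_eq_fintype_card, Fintype.card_subtype]
    rw [h4, Nat.mul_sub, mul_one]
    exact Nat.sub_le_sub_right (card_mul_le hG (h𝒦 K hK)) p
  have h5 : p * (Nat.card G - 1) ≤ 𝒦.card * (Nat.card G - p) := by
    calc p * (Nat.card G - 1) ≤ p * ∑ K ∈ 𝒦, ((Finset.univ.filter fun g => g ∈ K).erase 1).card :=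
          Nat.mul_le_mul_left _ h2
      _ = ∑ K ∈ 𝒦, p * ((Finset.univ.filter fun g => g ∈ K).erase 1).card := Finset.mul_sum _ _ _
      _ ≤ ∑ K ∈ 𝒦, (Nat.card G - p) := Finset.sum_le_sum h3
      _ = _ := by rw [Finset.sum_const, smul_eq_mul]
  have hpp := hp.out.two_le
  obtain ⟨K, hK, -⟩ := hcov 1
  have h6 := card_mul_le hG (h𝒦 K hK)
  have h7 : 0 < Nat.card K := Nat.card_pos
  have h8 : p ≤ Nat.card G := by nlinarith
  have h9 : 𝒦.card * (Nat.card G - p) ≤ p * (Nat.card G - p) := Nat.mul_le_mul_right _ (by omega)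
  have h10 : Nat.card G - 1 ≤ Nat.card G - p := Nat.le_of_mul_le_mul_left (h5.trans h9) (by omega)
  omega

theorem main (p : ℕ) [hp : Fact p.Prime] (n : ℕ) : ∀ {G : Type u} [Group G] [Finite G],
    Nat.card G = n → Subgroup.closure (pElts p G) = ⊤ →
    ∀ 𝒦 : Finset (Subgroup G), (∀ K ∈ 𝒦, K ≠ ⊤) → (∀ g ∈ pElts p G, ∃ K ∈ 𝒦, g ∈ K) →
    p + 1 ≤ 𝒦.card := by
  classical
  induction n using Nat.strong_induction_on with
  | h n ih =>
  intro G _ _ hn hgen 𝒦 h𝒦 hcov
  by_cases hpG : IsPGroup p G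
  · refine base hpG 𝒦 h𝒦 fun g => hcov g ?_
    obtain ⟨k, hk⟩ := (IsPGroup.iff_orderOf.mp hpG) g
    exact ⟨k, hk⟩
  by_contra hlt
  -- proper subgroups generated by their `p`-elements
  let pg : Subgroup G → Subgroup G := fun H => Subgroup.closure ((H : Set G) ∩ pElts p G)
  have hpg_le : ∀ H, pg H ≤ H := fun H => by
    rw [Subgroup.closure_le]; exact Set.inter_subset_left
  have hpg_mono : ∀ H H' : Subgroup G, H ≤ H' → pg H ≤ pg H' := fun H H' hH =>
    Subgroup.closure_mono (Set.inter_subset_inter_left _ hH)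
  have hpg_pg : ∀ H, pg (pg H) = pg H := fun H =>
    le_antisymm (hpg_le _) (Subgroup.closure_mono fun x hx =>
      ⟨Subgroup.subset_closure hx, hx.2⟩)
  have hkey : ∀ H : Subgroup G, H ≠ ⊤ → pg H = H → ∃ K ∈ 𝒦, H ≤ K := by
    intro H hH hpgH
    by_contra hne
    push Not at hne
    have h1 : Nat.card H < n := by
      rw [← hn]
      exact lt_of_le_of_ne (Subgroup.card_le_card_group H) fun h => hH (Subgroup.eq_top_of_card_eq H h)
    have h2 : Subgroup.closure (pElts p H) = ⊤ := by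
      apply Subgroup.map_injective (Subgroup.subtype_injective H)
      rw [MonoidHom.map_closure, ← MonoidHom.range_eq_map, Subgroup.range_subtype]
      conv_rhs => rw [← hpgH]
      congr 1
      ext x
      constructor
      · rintro ⟨⟨y, hy⟩, ⟨k, hk⟩, rfl⟩
        exact ⟨hy, k, by rw [← hk]; exact Subgroup.orderOf_mk _ _ |>.symm⟩
      · rintro ⟨hx, k, hk⟩
        exact ⟨⟨x, hx⟩, ⟨k, by rw [← hk]; exact Subgroup.orderOf_mk _ _⟩, rfl⟩
    have h3 := ih _ h1 rfl h2 (𝒦.image fun K => K.subgroupOf H) (by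
      intro K hK
      obtain ⟨K', hK', rfl⟩ := Finset.mem_image.mp hK
      rw [Ne, Subgroup.subgroupOf_eq_top]
      exact hne K' hK') (by
      rintro ⟨x, hx⟩ ⟨k, hk⟩
      obtain ⟨K, hK, hxK⟩ := hcov x ⟨k, by rw [← hk]; exact (Subgroup.orderOf_mk _ _).symm⟩
      exact ⟨K.subgroupOf H, Finset.mem_image_of_mem _ hK, hxK⟩)
    exact hlt (h3.trans Finset.card_image_le)
  have : Fintype (Subgroup G) := Fintype.ofFinite _
  let P : Subgroup G → Prop := fun H => H ≠ ⊤ ∧ pg H = H
  let 𝓜 : Finset (Subgroup G) := Finset.univ.filter fun H => Maximal P H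
  have hM : ∀ {H}, H ∈ 𝓜 ↔ Maximal P H := by simp [𝓜]
  have hcard : 𝓜.card ≤ 𝒦.card := by
    choose! f hf hf' using hkey
    refine Finset.card_le_card_of_injOn f (fun H hH => ?_) ?_
    · have h1 := (hM.mp hH).prop
      exact hf H h1.1 h1.2
    · intro H hH H' hH' hff
      have h1 := hM.mp hH
      have h2 := hM.mp hH'
      have h3 : P (pg (f H)) := by
        refine ⟨fun hc => h𝒦 _ (hf H h1.prop.1 h1.prop.2) ?_, hpg_pg _⟩
        exact top_unique (hc ▸ hpg_le _)
      have h4 : H ≤ pg (f H) := by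
        have h6 := hpg_mono _ _ (hf' H h1.prop.1 h1.prop.2)
        rwa [h1.prop.2] at h6
      have h5 : H' ≤ pg (f H) := by
        have h6 := hpg_mono _ _ (hf' H' h2.prop.1 h2.prop.2)
        rwa [h2.prop.2, ← hff] at h6
      rw [h1.eq_of_le h3 h4, h2.eq_of_le h3 h5]
  -- conjugation
  have hpgmap : ∀ (g : G) (H : Subgroup G), pg (H.map (MulAut.conj g).toMonoidHom) =
      (pg H).map (MulAut.conj g).toMonoidHom := by
    intro g H
    simp only [pg, MonoidHom.map_closure]
    congr 1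
    ext x
    constructor
    · rintro ⟨⟨y, hy, rfl⟩, k, hk⟩
      refine ⟨y, ⟨hy, k, ?_⟩, rfl⟩
      rw [← hk]
      exact ((MulAut.conj g).orderOf_eq y).symm
    · rintro ⟨y, ⟨hy, k, hk⟩, rfl⟩
      exact ⟨⟨y, hy, rfl⟩, k, by rw [← hk]; exact (MulAut.conj g).orderOf_eq y⟩
  have hmapP : ∀ (g : G) (H : Subgroup G), P H → P (H.map (MulAut.conj g).toMonoidHom) := by
    intro g H hH
    refine ⟨fun hc => hH.1 ?_, by rw [hpgmap, hH.2]⟩
    apply Subgroup.eq_top_of_card_eq
    rw [← Subgroup.card_map_of_injective (K := H) (f := (MulAut.conj g).toMonoidHom)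
      (MulAut.conj g).injective, hc, Subgroup.card_top]
  have hmapmap : ∀ (g g' : G) (H : Subgroup G), (H.map (MulAut.conj g).toMonoidHom).map
      (MulAut.conj g').toMonoidHom = H.map (MulAut.conj (g' * g)).toMonoidHom := by
    intro g g' H
    rw [Subgroup.map_map]
    congr 1
    ext x
    simp [mul_assoc]
  have hmap1 : ∀ H : Subgroup G, H.map (MulAut.conj (1 : G)).toMonoidHom = H := by
    intro H
    ext x
    simp
  have hmapM : ∀ (g : G) (H : Subgroup G), Maximal P H →
      Maximal P (H.map (MulAut.conj g).toMonoidHom) := by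
    intro g H hH
    refine ⟨hmapP g H hH.prop, fun K hK hHK => ?_⟩
    have h1 : H ≤ K.map (MulAut.conj g⁻¹).toMonoidHom := by
      have h2 := Subgroup.map_mono (f := (MulAut.conj g⁻¹).toMonoidHom) hHK
      rwa [hmapmap, inv_mul_cancel, hmap1] at h2
    have h3 := hH.eq_of_le (hmapP g⁻¹ K hK) h1
    rw [h3, hmapmap, mul_inv_cancel, hmap1]
  have hnorm : ∀ (x : G) (N : Subgroup G), N.map (MulAut.conj x).toMonoidHom = N →
      x ∈ Subgroup.normalizer (N : Set G) := by
    intro x N h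
    rw [Subgroup.mem_normalizer_iff]
    intro y
    constructor
    · intro hy
      rw [← h]
      exact ⟨y, hy, rfl⟩
    · intro hy
      rw [← h] at hy
      obtain ⟨w, hw, hwy⟩ := hy
      have : w = y := by
        have h1 : x * w * x⁻¹ = x * y * x⁻¹ := hwy
        exact mul_left_cancel (mul_right_cancel h1)
      exact this ▸ hw
  have hnorm' : ∀ (x : G) (N : Subgroup G), x ∈ Subgroup.normalizer (N : Set G) →
      N.map (MulAut.conj x).toMonoidHom = N := by
    intro x N h
    rw [Subgroup.mem_normalizer_iff] at h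
    ext y
    constructor
    · rintro ⟨w, hw, rfl⟩
      exact (h w).mp hw
    · intro hy
      refine ⟨x⁻¹ * y * x, ?_, ?_⟩
      · refine (h _).mpr ?_
        rwa [show x * (x⁻¹ * y * x) * x⁻¹ = y by group]
      · change x * (x⁻¹ * y * x) * x⁻¹ = y
        group
  -- `p`-subgroups lie in a member
  have hpsub : ∀ Q : Subgroup G, IsPGroup p Q → ∃ M ∈ 𝓜, Q ≤ M := by
    intro Q hQ
    have h1 : P Q := by
      refine ⟨?_, le_antisymm (hpg_le _) fun x hx => Subgroup.subset_closure ⟨hx, ?_⟩⟩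
      · rintro rfl
        exact hpG (hQ.of_equiv Subgroup.topEquiv)
      · obtain ⟨k, hk⟩ := (IsPGroup.iff_orderOf.mp hQ) ⟨x, hx⟩
        exact ⟨k, by rw [← hk]; exact (Subgroup.orderOf_mk _ _).symm⟩
    obtain ⟨M, hQM, hM'⟩ := Finite.exists_le_maximal h1
    exact ⟨M, hM.mpr hM', hQM⟩
  -- every `p`-element normalizes every member
  have hall : ∀ x ∈ pElts p G, ∀ N ∈ 𝓜, x ∈ Subgroup.normalizer (N : Set G) := by
    rintro x ⟨k, hk⟩ N hN
    have h1 : IsPGroup p (Subgroup.zpowers x) := by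
      apply IsPGroup.of_card (n := k)
      rw [Nat.card_zpowers, hk]
    obtain ⟨M, hMM, hxM⟩ := hpsub _ h1
    rw [Subgroup.zpowers_le] at hxM
    by_cases hNM : N = M
    · rw [hNM]
      exact Subgroup.le_normalizer hxM
    have h2 : ∀ i ∈ Finset.range p, N.map (MulAut.conj (x ^ i)).toMonoidHom ∈ 𝓜.erase M := by
      intro i _
      rw [Finset.mem_erase]
      refine ⟨fun hc => hNM ?_, hM.mpr (hmapM _ _ (hM.mp hN))⟩
      have h3 := congrArg (fun H : Subgroup G => H.map (MulAut.conj (x ^ i)⁻¹).toMonoidHom) hc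
      simp only [hmapmap, inv_mul_cancel, hmap1] at h3
      rw [h3]
      exact hnorm' _ _ (Subgroup.le_normalizer (M.inv_mem (M.pow_mem hxM i)))
    have h3 : (𝓜.erase M).card < (Finset.range p).card := by
      rw [Finset.card_erase_of_mem hMM, Finset.card_range]
      have := hp.out.pos
      omega
    obtain ⟨i, hi, j, hj, hij, heq⟩ := Finset.exists_ne_map_eq_of_card_lt_of_maps_to h3 h2
    -- a general statement for `i < j`
    have h4 : ∀ i j : ℕ, i < j → j < p →
        N.map (MulAut.conj (x ^ i)).toMonoidHom = N.map (MulAut.conj (x ^ j)).toMonoidHom →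
        x ∈ Subgroup.normalizer (N : Set G) := by
      intro i j hij hj heq
      have h5 : N.map (MulAut.conj (x ^ (j - i))).toMonoidHom = N := by
        have h6 := congrArg (fun H : Subgroup G => H.map (MulAut.conj (x ^ i)⁻¹).toMonoidHom) heq
        simp only [hmapmap, inv_mul_cancel, hmap1] at h6
        rw [pow_sub x hij.le, (Commute.refl x).pow_pow j i |>.inv_right.eq]
        exact h6.symm
      have h6 : (j - i).Coprime (orderOf x) := by
        rw [hk]
        apply Nat.Coprime.pow_right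
        rw [Nat.coprime_comm, hp.out.coprime_iff_not_dvd]
        exact Nat.not_dvd_of_pos_of_lt (by omega) (by omega)
      obtain ⟨m, hm⟩ := exists_pow_eq_self_of_coprime h6
      rw [← hm]
      exact Subgroup.pow_mem _ (hnorm _ _ h5) m
    rcases lt_or_gt_of_ne hij with h5 | h5
    · exact h4 i j h5 (Finset.mem_range.mp hj) heq
    · exact h4 j i h5 (Finset.mem_range.mp hi) heq.symm
  -- the final contradiction
  obtain ⟨M, hMM, hSM⟩ := hpsub _ (default : Sylow p G).isPGroup'
  have hMn : Subgroup.normalizer (M : Set G) = ⊤ := by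
    rw [eq_top_iff, ← hgen, Subgroup.closure_le]
    exact fun x hx => hall x hx M hMM
  have : M.Normal := Subgroup.normalizer_eq_top_iff.mp hMn
  apply (hM.mp hMM).prop.1
  rw [eq_top_iff, ← hgen, Subgroup.closure_le]
  rintro x ⟨k, hk⟩
  have h1 : IsPGroup p (Subgroup.zpowers x) := by
    apply IsPGroup.of_card (n := k)
    rw [Nat.card_zpowers, hk]
  obtain ⟨S, hS⟩ := h1.exists_le_sylow
  obtain ⟨g, hg⟩ := MulAction.exists_smul_eq G (default : Sylow p G) S
  have h2 : x ∈ ((g • (default : Sylow p G) : Sylow p G) : Subgroup G) :=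
    hg ▸ hS (Subgroup.mem_zpowers x)
  rw [Sylow.coe_subgroup_smul, Subgroup.mem_pointwise_smul_iff_inv_smul_mem] at h2
  have h3 := hSM h2
  have h4 : g * (g⁻¹ * x * g) * g⁻¹ ∈ M := by
    refine this.conj_mem _ ?_ g
    convert h3 using 1
    rw [← MulAut.conj_inv_apply]
    rfl
  rwa [show g * (g⁻¹ * x * g) * g⁻¹ = x by group] at h4

end Cfsg.Agent.Lib.H10CoverP
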