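import Cfsg.Agent.Lib.SmallSimple3
import Cfsg.Agent.Lib.Simple168

set_option autoImplicit false
set_option linter.unusedSectionVars false

/-! Simple groups of order 175560: Sylow arithmetic. -/

namespace Cfsg.Agent.Lib.H10J175

open Subgroup
open Cfsg.Agent.Lib.SmallSimple
open Cfsg.Agent.Lib.Simple168 (exists_mem_orderOf_eq orderOf_dvd_card_of_mem card_orderOf_eq)

section General

variable {G : Type*} [Group G] [Finite G]

/-- The number of Sylow subgroups of a subgroup containing a Sylow subgroup. -/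
theorem exists_mod {p : ℕ} [Fact p.Prime] (P : Sylow p G) (H : Subgroup G) (hP : (P : Subgroup G) ≤ H) :
    ∃ m, m % p = 1 ∧ m * Nat.card ↥(normalizer ((P : Subgroup G) : Set G) ⊓ H) = Nat.card H := by
  refine ⟨Nat.card (Sylow p H), nsyl_mod p H, ?_⟩
  have h1 := card_normalizer_mul_nsyl (P.subtype hP)
  rw [mul_comm] at h1
  rw [← h1]
  congr 1
  rw [← card_subgroupOf]
  congr 2
  rw [Sylow.coe_subtype]
  ext x
  rw [mem_subgroupOf]
  constructor
  · intro hx
    rw [mem_normalizer_iff]
    intro y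
    rw [mem_subgroupOf, mem_subgroupOf]
    exact mem_normalizer_iff.1 hx (y : G)
  · intro hx
    rw [mem_normalizer_iff] at hx ⊢
    intro y
    constructor
    · intro hy
      have := (hx ⟨y, hP hy⟩).1 (mem_subgroupOf.2 hy)
      exact mem_subgroupOf.1 this
    · intro hy
      have h3 : (x : G) * y * (x : G)⁻¹ ∈ H := hP hy
      have h4 : y ∈ H := by
        have : y = (x : G)⁻¹ * ((x : G) * y * (x : G)⁻¹) * x := by group
        rw [this]
        exact H.mul_mem (H.mul_mem (H.inv_mem x.2) h3) x.2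
      have := (hx ⟨y, h4⟩).2 (mem_subgroupOf.2 hy)
      exact mem_subgroupOf.1 this

/-- A subgroup of order `p` is a Sylow subgroup if `p` exactly divides the order. -/
theorem exists_sylow_eq {p : ℕ} [Fact p.Prime] (hcard : ∀ P : Sylow p G, Nat.card (P : Subgroup G) = p)
    (x : G) (hx : orderOf x = p) : ∃ P : Sylow p G, (P : Subgroup G) = zpowers x := by
  have h2 : IsPGroup p (zpowers x) := by
    apply IsPGroup.of_card (n := 1)
    rw [Nat.card_zpowers, hx, pow_one]
  obtain ⟨Q, hQ⟩ := h2.exists_le_sylow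
  refine ⟨Q, (eq_of_le_of_card_ge hQ ?_).symm⟩
  rw [hcard Q, Nat.card_zpowers, hx]

theorem sylow_cyclic {p : ℕ} [Fact p.Prime] (hcard : ∀ P : Sylow p G, Nat.card (P : Subgroup G) = p)
    (P : Sylow p G) : ∃ x : G, orderOf x = p ∧ (P : Subgroup G) = zpowers x := by
  obtain ⟨x, hx, hxo⟩ := exists_mem_orderOf_eq (P : Subgroup G) p (by rw [hcard P])
  refine ⟨x, hxo, (eq_of_le_of_card_ge ?_ ?_).symm⟩
  · rwa [zpowers_le]
  · rw [hcard P, Nat.card_zpowers, hxo]

/-- orders of `N(P)`: all the same -/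
theorem cardN {p : ℕ} [Fact p.Prime] (P Q : Sylow p G) :
    Nat.card (normalizer ((P : Subgroup G) : Set G)) = Nat.card (normalizer ((Q : Subgroup G) : Set G)) := by
  have h1 := card_normalizer_mul_nsyl P
  have h2 := card_normalizer_mul_nsyl Q
  have h3 : 0 < Nat.card (Sylow p G) := Nat.card_pos
  exact Nat.eq_of_mul_eq_mul_right h3 (h1.trans h2.symm)

/-- elements of `N(P)` of prime order not dividing `p - 1` centralize `P` -/
theorem centralizes {p : ℕ} [Fact p.Prime] (P : Subgroup G) (hP : Nat.card P = p) {q : ℕ} [Fact q.Prime]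
    (hq1 : ¬ q ∣ p - 1) (y : G) (hy : orderOf y = q)
    (hyN : y ∈ normalizer (P : Set G)) : y ∈ centralizer (P : Set G) := by
  set N := normalizer (P : Set G) with hN
  set C := (centralizer (P : Set G)).subgroupOf N with hC
  have hCn : C.Normal := by
    rw [hC, ← normalizerMonoidHom_ker]
    infer_instance
  have h1 : C.index ∣ p - 1 := relIndex_centralizer_dvd_pred (Fact.out) P hP
  have h2 : (⟨y, hyN⟩ : N) ∈ C := by
    apply mem_of_orderOf_coprime_index
    rw [orderOf_mk, hy]
    exact (Nat.Prime.coprime_iff_not_dvd Fact.out).2 (fun h => hq1 (h.trans h1))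
  exact mem_subgroupOf.1 h2

/-- double counting of commuting Sylow subgroups -/
theorem two_primes {p q : ℕ} [Fact p.Prime] [Fact q.Prime] (hpq : p ≠ q)
    (hcp : ∀ P : Sylow p G, Nat.card (P : Subgroup G) = p) (hcq : ∀ P : Sylow q G, Nat.card (P : Subgroup G) = q)
    (P : Sylow p G) (hq1 : ¬ q ∣ p - 1) (hq : q ∣ Nat.card (normalizer ((P : Subgroup G) : Set G))) :
    ∃ m1 m2, m1 % q = 1 ∧ m2 % p = 1 ∧ Nat.card (Sylow p G) * m1 = Nat.card (Sylow q G) * m2 ∧
      Nat.card (Sylow p G) * (p * q * m1) ∣ Nat.card G := by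
  obtain ⟨y, hyN, hyo⟩ := exists_mem_orderOf_eq _ q hq
  obtain ⟨Q, hQ⟩ := exists_sylow_eq hcq y hyo
  have hyC := centralizes (P : Subgroup G) (hcp P) hq1 y hyo hyN
  have hQN : (Q : Subgroup G) ≤ normalizer ((P : Subgroup G) : Set G) := by
    rw [hQ, zpowers_le]; exact hyN
  have hPQ : (P : Subgroup G) ≤ normalizer ((Q : Subgroup G) : Set G) := by
    apply le_trans _ (centralizer_le_normalizer' (Q : Subgroup G))
    intro x hx
    rw [mem_centralizer_iff]
    intro z hz
    rw [SetLike.mem_coe, hQ] at hz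
    obtain ⟨k, rfl⟩ := mem_zpowers_iff.1 hz
    have h1 : Commute y x := by
      rw [mem_centralizer_iff] at hyC
      exact (hyC x hx).symm
    exact (h1.zpow_left k).eq
  obtain ⟨m1, h1, h2⟩ := exists_mod Q _ hQN
  obtain ⟨m2, h3, h4⟩ := exists_mod P _ hPQ
  refine ⟨m1, m2, h1, h3, ?_, ?_⟩
  · have h5 := card_normalizer_mul_nsyl P
    have h6 := card_normalizer_mul_nsyl Q
    rw [← h2] at h5
    rw [← h4] at h6
    rw [inf_comm] at h6
    have h7 : 0 < Nat.card ↥(normalizer ((Q : Subgroup G) : Set G) ⊓ normalizer ((P : Subgroup G) : Set G)) := Nat.card_pos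
    apply Nat.eq_of_mul_eq_mul_left h7
    calc _ = m1 * Nat.card ↥(normalizer ((Q : Subgroup G) : Set G) ⊓ normalizer ((P : Subgroup G) : Set G)) * Nat.card (Sylow p G) := by ring
      _ = m2 * Nat.card ↥(normalizer ((Q : Subgroup G) : Set G) ⊓ normalizer ((P : Subgroup G) : Set G)) * Nat.card (Sylow q G) := by rw [h5, h6]
      _ = _ := by ring
  · have h5 := card_normalizer_mul_nsyl P
    rw [← h2] at h5
    rw [← h5]
    have h8 : p ∣ Nat.card ↥(normalizer ((Q : Subgroup G) : Set G) ⊓ normalizer ((P : Subgroup G) : Set G)) := by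
      have : (P : Subgroup G) ≤ normalizer ((Q : Subgroup G) : Set G) ⊓ normalizer ((P : Subgroup G) : Set G) :=
        le_inf hPQ le_normalizer
      have := card_dvd_of_le this
      rwa [hcp P] at this
    have h9 : q ∣ Nat.card ↥(normalizer ((Q : Subgroup G) : Set G) ⊓ normalizer ((P : Subgroup G) : Set G)) := by
      have : (Q : Subgroup G) ≤ normalizer ((Q : Subgroup G) : Set G) ⊓ normalizer ((P : Subgroup G) : Set G) :=
        le_inf le_normalizer hQN
      have := card_dvd_of_le this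
      rwa [hcq Q] at this
    have h10 : p * q ∣ Nat.card ↥(normalizer ((Q : Subgroup G) : Set G) ⊓ normalizer ((P : Subgroup G) : Set G)) :=
      Nat.Coprime.mul_dvd_of_dvd_of_dvd ((Nat.coprime_primes Fact.out Fact.out).2 hpq) h8 h9
    obtain ⟨r, hr⟩ := h10
    rw [hr]
    exact ⟨r, by ring⟩

end General

section Order

variable {G : Type*} [Group G] [Finite G] [IsSimpleGroup G]

theorem hG (h : Nat.card G = 175560) : ¬ IsMulCommutative G := not_isMulCommutative_of_card h (by norm_num)

theorem index_ge (h : Nat.card G = 175560) (H : Subgroup G) (hH : H ≠ ⊤) : 19 ≤ H.index := by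
  have h1 := two_mul_card_dvd_factorial_index (hG h) H hH
  rw [h] at h1
  have h2 : 19 ∣ (H.index).factorial := Dvd.dvd.trans (by norm_num) h1
  exact (Nat.Prime.dvd_factorial (by norm_num)).1 h2

theorem card_le (h : Nat.card G = 175560) (H : Subgroup G) (hH : H ≠ ⊤) : Nat.card H ≤ 9240 := by
  have h1 := index_ge h H hH
  have h2 := H.card_mul_index
  rw [h] at h2
  by_contra hcon
  have h3 : 9241 ≤ Nat.card H := by omega
  nlinarith

instance fact5 : Fact (Nat.Prime 5) := ⟨by norm_num⟩
instance fact7 : Fact (Nat.Prime 7) := ⟨by norm_num⟩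
instance fact11 : Fact (Nat.Prime 11) := ⟨by norm_num⟩
instance fact19 : Fact (Nat.Prime 19) := ⟨by norm_num⟩

omit [IsSimpleGroup G] in
theorem cardP (h : Nat.card G = 175560) {p : ℕ} [Fact p.Prime] (m : ℕ) (hp : 175560 = p * m) (hm : ¬ p ∣ m)
    (P : Sylow p G) : Nat.card (P : Subgroup G) = p := by
  have hG5 : Nat.card G = p ^ 1 * m := by rw [h, pow_one, hp]
  have := sylow_card_of hG5 hm P
  rw [show Nat.card (P : Subgroup G) = p ^ 1 from this, pow_one]

/-- the conditions on the pair `(p, n_p)` -/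
def ok1 (p n : ℕ) : Bool := 175560 / p % n = 0 && n % p = 1 && 19 ≤ n && Nat.gcd (175560 / p / n) (p - 1) ≠ 1

theorem nsyl_ok1 (h : Nat.card G = 175560) {p : ℕ} [Fact p.Prime] (m : ℕ) (hp : 175560 = p * m) (hm : ¬ p ∣ m) :
    ok1 p (Nat.card (Sylow p G)) = true := by
  have hpp : p.Prime := Fact.out
  have hG5 : Nat.card G = p ^ 1 * m := by rw [h, pow_one, hp]
  have h1 := nsyl_dvd hG5 hm
  have hm' : 175560 / p = m := by rw [hp, Nat.mul_div_cancel_left _ hpp.pos]
  obtain ⟨P⟩ : Nonempty (Sylow p G) := inferInstance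
  obtain ⟨e, c, hN, hC, he, he1⟩ := nc_data (hG h) P (cardP h m hp hm P)
  have h5 := card_normalizer_mul_nsyl P
  rw [hN, h, hp] at h5
  have h6 : e * c * Nat.card (Sylow p G) = m := by
    apply Nat.eq_of_mul_eq_mul_left hpp.pos
    rw [← h5]; ring
  have hpos : 0 < Nat.card (Sylow p G) := Nat.card_pos
  have h7 : m / Nat.card (Sylow p G) = e * c := by
    rw [← h6, Nat.mul_div_cancel _ hpos]
  unfold ok1
  rw [hm', h7]
  simp only [ne_eq, Bool.and_eq_true, decide_eq_true_eq]
  refine ⟨⟨⟨Nat.mod_eq_zero_of_dvd h1, nsyl_mod p G⟩, ?_⟩, ?_⟩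
  · rw [P.card_eq_index_normalizer]
    apply index_ge h
    intro h8
    apply nsyl_ne_one (hG h) (p := p) (by rw [h, hp]; exact Dvd.intro _ rfl)
    rw [P.card_eq_index_normalizer, h8, index_top]
  · intro h8
    apply he1
    have h9 : e ∣ Nat.gcd (e * c) (p - 1) := Nat.dvd_gcd (Dvd.intro _ rfl) he
    rw [h8] at h9
    exact Nat.dvd_one.1 h9

/-- the possible values of `n_p` -/
theorem mem_of_check (h : Nat.card G = 175560) {p : ℕ} [Fact p.Prime] (m : ℕ) (hp : 175560 = p * m) (hm : ¬ p ∣ m)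
    (L : List ℕ) (hL : ((List.range (m / 19 + 1)).all fun k => (m % k != 0) || (!ok1 p (m / k)) || L.contains (m / k)) = true) :
    Nat.card (Sylow p G) ∈ L := by
  have hpp : p.Prime := Fact.out
  have hG5 : Nat.card G = p ^ 1 * m := by rw [h, pow_one, hp]
  have h1 := nsyl_dvd hG5 hm
  have h2 := nsyl_ok1 h m hp hm
  have h3 : 19 ≤ Nat.card (Sylow p G) := by
    unfold ok1 at h2
    simp only [Bool.and_eq_true, decide_eq_true_eq] at h2
    exact h2.1.2
  obtain ⟨k, hk⟩ := h1
  have hpos : 0 < Nat.card (Sylow p G) := Nat.card_pos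
  have hm0 : 0 < m := by
    rcases Nat.eq_zero_or_pos m with h0 | h0
    · rw [h0] at hm; exact absurd (dvd_zero p) hm
    · exact h0
  have hk0 : 0 < k := by
    rcases Nat.eq_zero_or_pos k with h0 | h0
    · rw [h0, mul_zero] at hk; omega
    · exact h0
  have h4 : k ≤ m / 19 := by
    rw [Nat.le_div_iff_mul_le (by norm_num), hk, mul_comm]
    exact Nat.mul_le_mul_right k h3
  have h5 : m / k = Nat.card (Sylow p G) := by rw [hk, Nat.mul_div_cancel _ hk0]
  rw [List.all_eq_true] at hL
  have h6 := hL k (List.mem_range.2 (by omega))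
  rw [h5] at h6
  rw [h2] at h6
  have h7 : m % k = 0 := by rw [hk, Nat.mul_mod_left]
  rw [h7] at h6
  simpa using h6

def L5 : List ℕ := [21, 66, 76, 231, 266, 836, 1596, 2926, 17556]
def L7 : List ℕ := [22, 57, 190, 330, 1254, 4180]
def L11 : List ℕ := [56, 133, 210, 1596]
def L19 : List ℕ := [20, 77, 210, 1540]

theorem mem5 (h : Nat.card G = 175560) : Nat.card (Sylow 5 G) ∈ L5 :=
  mem_of_check h 35112 (by norm_num) (by norm_num) L5 (by decide +kernel)
theorem mem7 (h : Nat.card G = 175560) : Nat.card (Sylow 7 G) ∈ L7 :=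
  mem_of_check h 25080 (by norm_num) (by norm_num) L7 (by decide +kernel)
theorem mem11 (h : Nat.card G = 175560) : Nat.card (Sylow 11 G) ∈ L11 :=
  mem_of_check h 15960 (by norm_num) (by norm_num) L11 (by decide +kernel)
theorem mem19 (h : Nat.card G = 175560) : Nat.card (Sylow 19 G) ∈ L19 :=
  mem_of_check h 9240 (by norm_num) (by norm_num) L19 (by decide +kernel)

/-- the condition on a pair of Sylow numbers -/
def pairOk (p q a b : ℕ) : Bool :=
  (175560 / a % q != 0) || ((List.range (175560 / a / (p * q) + 1)).any fun m1 =>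
    (m1 % q == 1) && (a * m1 % b == 0) && ((a * m1 / b) % p == 1) && (175560 / a % (p * q * m1) == 0))

theorem pairOk_of (h : Nat.card G = 175560) {p q : ℕ} [Fact p.Prime] [Fact q.Prime] (m m' : ℕ)
    (hp : 175560 = p * m) (hm : ¬ p ∣ m) (hq : 175560 = q * m') (hm' : ¬ q ∣ m') (hpq : p ≠ q) (hq1 : ¬ q ∣ p - 1) :
    pairOk p q (Nat.card (Sylow p G)) (Nat.card (Sylow q G)) = true := by
  obtain ⟨P⟩ : Nonempty (Sylow p G) := inferInstance
  have h5 := card_normalizer_mul_nsyl P
  have hpos : 0 < Nat.card (Sylow p G) := Nat.card_pos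
  have hposq : 0 < Nat.card (Sylow q G) := Nat.card_pos
  have h6 : 175560 / Nat.card (Sylow p G) = Nat.card (normalizer ((P : Subgroup G) : Set G)) := by
    rw [← h, ← h5, Nat.mul_div_cancel _ hpos]
  unfold pairOk
  rw [h6, Bool.or_eq_true]
  by_cases hd : q ∣ Nat.card (normalizer ((P : Subgroup G) : Set G))
  · right
    obtain ⟨m1, m2, a1, a2, a3, a4⟩ := two_primes hpq (cardP h m hp hm) (cardP h m' hq hm') P hq1 hd
    rw [← h5, mul_comm] at a4
    have a5 := Nat.dvd_of_mul_dvd_mul_right hpos a4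
    have hN : 0 < Nat.card (normalizer ((P : Subgroup G) : Set G)) := Nat.card_pos
    have hpq0 : 0 < p * q := Nat.mul_pos (Nat.Prime.pos Fact.out) (Nat.Prime.pos Fact.out)
    rw [List.any_eq_true]
    refine ⟨m1, ?_, ?_⟩
    · rw [List.mem_range]
      have : m1 ≤ Nat.card (normalizer ((P : Subgroup G) : Set G)) / (p * q) := by
        rw [Nat.le_div_iff_mul_le hpq0, mul_comm]
        exact Nat.le_of_dvd hN a5
      omega
    · rw [a3, Nat.mul_mod_right, Nat.mul_div_cancel_left _ hposq, a1, a2, Nat.mod_eq_zero_of_dvd a5]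
      rfl
  · left
    rw [bne_iff_ne]
    intro h0
    exact hd (Nat.dvd_of_mod_eq_zero h0)

def SOL : List (ℕ × ℕ × ℕ × ℕ) :=
  [(1596, 4180, 1596, 1540), (2926, 4180, 133, 1540), (2926, 4180, 210, 210), (2926, 4180, 1596, 1540),
   (17556, 4180, 133, 1540), (17556, 4180, 210, 210), (17556, 4180, 1596, 1540)]

def allOk (a b c d : ℕ) : Bool :=
  pairOk 5 7 a b && pairOk 5 11 a c && pairOk 5 19 a d && pairOk 7 5 b a && pairOk 7 11 b c && pairOk 7 19 b d &&
  pairOk 11 7 c b && pairOk 11 19 c d && pairOk 19 5 d a && pairOk 19 7 d b && pairOk 19 11 d c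

theorem check : (L5.all fun a => L7.all fun b => L11.all fun c => L19.all fun d =>
    (!allOk a b c d) || SOL.contains (a, b, c, d)) = true := by decide +kernel

theorem mem_SOL (h : Nat.card G = 175560) :
    (Nat.card (Sylow 5 G), Nat.card (Sylow 7 G), Nat.card (Sylow 11 G), Nat.card (Sylow 19 G)) ∈ SOL := by
  have h1 := check
  simp only [List.all_eq_true] at h1
  have h2 := h1 _ (mem5 h) _ (mem7 h) _ (mem11 h) _ (mem19 h)
  have h3 : allOk (Nat.card (Sylow 5 G)) (Nat.card (Sylow 7 G)) (Nat.card (Sylow 11 G)) (Nat.card (Sylow 19 G)) = true := by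
    unfold allOk
    simp only [Bool.and_eq_true]
    refine ⟨⟨⟨⟨⟨⟨⟨⟨⟨⟨?_, ?_⟩, ?_⟩, ?_⟩, ?_⟩, ?_⟩, ?_⟩, ?_⟩, ?_⟩, ?_⟩, ?_⟩
    · exact pairOk_of h 35112 25080 (by norm_num) (by norm_num) (by norm_num) (by norm_num) (by norm_num) (by norm_num)
    · exact pairOk_of h 35112 15960 (by norm_num) (by norm_num) (by norm_num) (by norm_num) (by norm_num) (by norm_num)
    · exact pairOk_of h 35112 9240 (by norm_num) (by norm_num) (by norm_num) (by norm_num) (by norm_num) (by norm_num)
    · exact pairOk_of h 25080 35112 (by norm_num) (by norm_num) (by norm_num) (by norm_num) (by norm_num) (by norm_num)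
    · exact pairOk_of h 25080 15960 (by norm_num) (by norm_num) (by norm_num) (by norm_num) (by norm_num) (by norm_num)
    · exact pairOk_of h 25080 9240 (by norm_num) (by norm_num) (by norm_num) (by norm_num) (by norm_num) (by norm_num)
    · exact pairOk_of h 15960 25080 (by norm_num) (by norm_num) (by norm_num) (by norm_num) (by norm_num) (by norm_num)
    · exact pairOk_of h 15960 9240 (by norm_num) (by norm_num) (by norm_num) (by norm_num) (by norm_num) (by norm_num)
    · exact pairOk_of h 9240 35112 (by norm_num) (by norm_num) (by norm_num) (by norm_num) (by norm_num) (by norm_num)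
    · exact pairOk_of h 9240 25080 (by norm_num) (by norm_num) (by norm_num) (by norm_num) (by norm_num) (by norm_num)
    · exact pairOk_of h 9240 15960 (by norm_num) (by norm_num) (by norm_num) (by norm_num) (by norm_num) (by norm_num)
  rw [h3] at h2
  simpa using h2

/-- The Sylow numbers. -/
theorem numbers (h : Nat.card G = 175560) : Nat.card (Sylow 7 G) = 4180 ∧
    (Nat.card (Sylow 5 G) = 1596 ∨ Nat.card (Sylow 5 G) = 2926 ∨ Nat.card (Sylow 5 G) = 17556) ∧
    ((Nat.card (Sylow 19 G) = 1540 ∧ (Nat.card (Sylow 11 G) = 133 ∨ Nat.card (Sylow 11 G) = 1596)) ∨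
      (Nat.card (Sylow 19 G) = 210 ∧ Nat.card (Sylow 11 G) = 210)) := by
  have h1 := mem_SOL h
  simp only [SOL, List.mem_cons, Prod.mk.injEq, List.not_mem_nil, or_false] at h1
  omega

end Order

end Cfsg.Agent.Lib.H10J175
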