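import Cfsg.Agent.Lib.H10J175
import Cfsg.Agent.Lib.H10Eight
import Cfsg.Agent.Lib.TransferApps
import Cfsg.Agent.Lib.DihedralHom
import Cfsg.Agent.S0215
import Cfsg.Agent.S0107

set_option autoImplicit false
set_option linter.unusedSectionVars false

/-! Simple groups of order 175560: the Sylow 2-subgroup. -/

namespace Cfsg.Agent.Lib.H10J175

open Subgroup
open Cfsg.Agent.Lib.SmallSimple
open Cfsg.Agent.Lib.Simple168 (exists_mem_orderOf_eq orderOf_dvd_card_of_mem card_orderOf_eq)

/-- a group acting on seven points with all orbits odd and without fixed points is transitive -/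
theorem trans_seven {H X : Type*} [Group H] [MulAction H X] [Finite X] (h7 : Nat.card X = 7)
    (hodd : ∀ x : X, Nat.card (MulAction.orbit H x) % 2 = 1) (hfix : ∀ x : X, Nat.card (MulAction.orbit H x) ≠ 1)
    (x y : X) : ∃ n : H, n • x = y := by
  classical
  have : Fintype X := Fintype.ofFinite X
  have : Fintype (MulAction.orbitRel.Quotient H X) := Fintype.ofFinite _
  have e := MulAction.selfEquivSigmaOrbits H X
  have h8 := h7
  rw [Nat.card_congr e, Nat.card_sigma] at h8
  have h3 : ∀ ω : MulAction.orbitRel.Quotient H X, 3 ≤ Nat.card (MulAction.orbit H (Quotient.out ω)) := by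
    intro ω
    have h1 := hodd (Quotient.out ω)
    have h2 := hfix (Quotient.out ω)
    omega
  have h4 : Fintype.card (MulAction.orbitRel.Quotient H X) * 3 ≤ 7 := by
    rw [← h8]
    have := Finset.card_nsmul_le_sum (Finset.univ : Finset (MulAction.orbitRel.Quotient H X))
      (fun ω => Nat.card (MulAction.orbit H (Quotient.out ω))) 3 (fun ω _ => h3 ω)
    simpa using this
  have h5 : Fintype.card (MulAction.orbitRel.Quotient H X) % 2 = 1 := by
    have h6 : (∑ ω : MulAction.orbitRel.Quotient H X, Nat.card (MulAction.orbit H (Quotient.out ω))) ≡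
        (∑ _ω : MulAction.orbitRel.Quotient H X, 1) [MOD 2] := by
      apply Nat.ModEq.sum
      intro ω _
      exact hodd (Quotient.out ω)
    rw [h8, Finset.sum_const, Finset.card_univ, smul_eq_mul, mul_one] at h6
    exact h6.symm
  have h6 : Fintype.card (MulAction.orbitRel.Quotient H X) = 1 := by omega
  have hss : Subsingleton (MulAction.orbitRel.Quotient H X) := by
    rw [← Fintype.card_le_one_iff_subsingleton]; omega
  have h9 : (Quotient.mk (MulAction.orbitRel H X) y : MulAction.orbitRel.Quotient H X) =
      Quotient.mk (MulAction.orbitRel H X) x := Subsingleton.elim _ _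
  have h10 : (MulAction.orbitRel H X) y x := Quotient.exact h9
  obtain ⟨n, hn⟩ := h10
  exact ⟨n, hn⟩

section Order

variable {G : Type*} [Group G] [Finite G] [IsSimpleGroup G]

omit [IsSimpleGroup G] in
theorem card2 (h : Nat.card G = 175560) (S : Sylow 2 G) : Nat.card (S : Subgroup G) = 8 := by
  have hG2 : Nat.card G = 2 ^ 3 * 21945 := by rw [h]; norm_num
  have := sylow_card_of hG2 (by norm_num) S
  rw [show Nat.card (S : Subgroup G) = 2 ^ 3 from this]; norm_num

theorem not_central (h : Nat.card G = 175560) {u : G} (hu : u ≠ 1) : centralizer ({u} : Set G) ≠ ⊤ := by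
  intro h1
  have h2 : u ∈ center G := by
    rw [mem_center_iff]
    intro g
    have hg : g ∈ centralizer ({u} : Set G) := by rw [h1]; trivial
    exact mem_centralizer_singleton_iff.1 hg
  have h4 : (center G).Normal := inferInstance
  rcases h4.eq_bot_or_eq_top with h5 | h5
  · rw [h5, mem_bot] at h2; exact hu h2
  · apply hG h
    refine ⟨⟨fun a b => ?_⟩⟩
    have h6 : a ∈ center G := by rw [h5]; trivial
    exact (mem_center_iff.1 h6 b).symm

/-- every involution of a Sylow 2-subgroup is fused to another one (Z*-theorem) -/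
theorem exists_fused (h : Nat.card G = 175560) (S : Sylow 2 G) {u : G} (hu : orderOf u = 2)
    (huS : u ∈ (S : Subgroup G)) : ∃ g : G, g * u * g⁻¹ ∈ (S : Subgroup G) ∧ g * u * g⁻¹ ≠ u := by
  by_contra hcon
  push Not at hcon
  obtain ⟨N, hN, hodd, hN2⟩ := Cfsg.Agent.S0215.result S u hu huS hcon
  rcases hN.eq_bot_or_eq_top with h1 | h1
  · have hu1 : u ≠ 1 := by rintro rfl; rw [orderOf_one] at hu; omega
    apply not_central h hu1
    rw [eq_top_iff]
    intro g _
    rw [mem_centralizer_singleton_iff]
    have h2 := hN2 g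
    rw [h1, mem_bot] at h2
    have h3 : u * g = g * u := by
      have : u * g * u⁻¹ * g⁻¹ * (g * u) = g * u := by rw [h2, one_mul]
      rw [← this]; group
    exact h3.symm
  · rw [h1, card_top, h] at hodd
    revert hodd; decide

theorem pResidual_top (h : Nat.card G = 175560) : pResidual 2 G = ⊤ := by
  have hn : (pResidual 2 G).Normal := by
    rw [pResidual]
    refine ⟨fun n hn g => ?_⟩
    have : ∀ x ∈ closure {g : G | Nat.Coprime (orderOf g) 2}, g * x * g⁻¹ ∈ closure {g : G | Nat.Coprime (orderOf g) 2} := by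
      intro x hx
      have h1 : (MulAut.conj g).toMonoidHom x ∈ (closure {g : G | Nat.Coprime (orderOf g) 2}).map (MulAut.conj g).toMonoidHom :=
        mem_map_of_mem _ hx
      rw [MonoidHom.map_closure] at h1
      refine closure_mono ?_ h1
      rintro _ ⟨y, hy, rfl⟩
      show Nat.Coprime (orderOf (MulAut.conj g y)) 2
      rw [MulEquiv.orderOf_eq]
      exact hy
    exact this n hn
  rcases hn.eq_bot_or_eq_top with h1 | h1
  · exfalso
    obtain ⟨y, hy⟩ := exists_prime_orderOf_dvd_card' (G := G) 3 (by rw [h]; norm_num)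
    have h2 : y ∈ pResidual 2 G := subset_closure (by show Nat.Coprime (orderOf y) 2; rw [hy]; norm_num)
    rw [h1, mem_bot] at h2
    rw [h2, orderOf_one] at hy
    omega
  · exact h1

/-- no fixed points of `N(S)` on an abelian Sylow subgroup -/
theorem no_fixed (h : Nat.card G = 175560) (S : Sylow 2 G) (hS : IsMulCommutative (S : Subgroup G)) {x : G}
    (hx : x ∈ (S : Subgroup G)) (hx1 : x ≠ 1) : ∃ n ∈ normalizer ((S : Subgroup G) : Set G), n * x * n⁻¹ ≠ x := by
  by_contra hcon
  push Not at hcon
  obtain ⟨N, hN, ⟨e⟩⟩ := TransferApps.abelian_sylow_quotient S hS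
  have hxC : x ∈ (S : Subgroup G) ⊓ centralizer (normalizer ((S : Subgroup G) : Set G) : Set G) := by
    refine mem_inf.2 ⟨hx, mem_centralizer_iff.2 (fun n hn => ?_)⟩
    have := hcon n hn
    rw [mul_inv_eq_iff_eq_mul] at this
    exact this
  rcases hN.eq_bot_or_eq_top with h1 | h1
  · -- G embeds in S
    have h2 : Nat.card (G ⧸ N) = 175560 := by
      rw [h1, ← index_eq_card, index_bot, h]
    rw [Nat.card_congr e.toEquiv] at h2
    have h3 : Nat.card ↥((S : Subgroup G) ⊓ centralizer (normalizer (S : Set G) : Set G)) ∣ 8 := by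
      rw [← card2 h S]; exact card_dvd_of_le inf_le_left
    rw [h2] at h3
    revert h3; decide
  · have h2 : Nat.card (G ⧸ N) = 1 := by
      rw [h1, ← index_eq_card, index_top]
    rw [Nat.card_congr e.toEquiv] at h2
    have h3 : (⟨x, hxC⟩ : ↥((S : Subgroup G) ⊓ centralizer (normalizer ((S : Subgroup G) : Set G) : Set G))) = 1 := by
      have : Subsingleton ↥((S : Subgroup G) ⊓ centralizer (normalizer ((S : Subgroup G) : Set G) : Set G)) :=
        (Nat.card_eq_one_iff_unique.1 h2).1
      exact Subsingleton.elim _ _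
    exact hx1 (congrArg Subtype.val h3)

/-- an `N(S)`-invariant subgroup of `S` does not have order 2 -/
theorem no_inv_two (h : Nat.card G = 175560) (S : Sylow 2 G) (hS : IsMulCommutative (S : Subgroup G)) (D : Subgroup G)
    (hD : D ≤ S) (hinv : ∀ n ∈ normalizer ((S : Subgroup G) : Set G), ∀ x ∈ D, n * x * n⁻¹ ∈ D) : Nat.card D ≠ 2 := by
  classical
  intro h2
  obtain ⟨d, hd⟩ : ∃ d : D, d ≠ 1 := by
    by_contra hcon
    push Not at hcon
    have : Nat.card D = 1 := Nat.card_eq_one_iff_unique.2 ⟨⟨fun a b => by rw [hcon a, hcon b]⟩, ⟨1⟩⟩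
    omega
  have hd1 : (d : G) ≠ 1 := fun e => hd (Subtype.ext e)
  obtain ⟨n, hn, hne⟩ := no_fixed h S hS (hD d.2) hd1
  apply hne
  have h3 : ∀ y : D, y = 1 ∨ y = d := by
    intro y
    by_contra hcon
    push Not at hcon
    have h4 : ({1, d, y} : Finset D).card ≤ Nat.card D := by
      have : Fintype D := Fintype.ofFinite D
      rw [Nat.card_eq_fintype_card]
      exact Finset.card_le_univ _
    have h5 : ({1, d, y} : Finset D).card = 3 := by
      classical
      rw [Finset.card_eq_three]
      exact ⟨1, d, y, hd.symm, hcon.1.symm, hcon.2.symm, rfl⟩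
    omega
  rcases h3 ⟨n * d * n⁻¹, hinv n hn d d.2⟩ with h4 | h4
  · exfalso
    have h5 : n * d * n⁻¹ = 1 := congrArg Subtype.val h4
    rw [mul_inv_eq_one] at h5
    exact hd1 (mul_left_cancel (a := n) (by rw [h5, mul_one]))
  · exact congrArg Subtype.val h4

/-- an abelian Sylow 2-subgroup is elementary -/
theorem elementary (h : Nat.card G = 175560) (S : Sylow 2 G) (hS : IsMulCommutative (S : Subgroup G)) :
    ∀ x ∈ (S : Subgroup G), x * x = 1 := by
  have hcomm : ∀ a ∈ (S : Subgroup G), ∀ b ∈ (S : Subgroup G), a * b = b * a := by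
    intro a ha b hb
    exact congrArg Subtype.val (hS.is_comm.comm (⟨a, ha⟩ : (S : Subgroup G)) ⟨b, hb⟩)
  let f : (S : Subgroup G) →* G :=
    { toFun := fun x => (x : G) * x
      map_one' := by simp
      map_mul' := by
        intro a b
        show (a : G) * b * (a * b) = a * a * (b * b)
        have := hcomm a a.2 b b.2
        calc (a : G) * b * (a * b) = a * (b * a) * b := by group
          _ = a * (a * b) * b := by rw [← this]
          _ = a * a * (b * b) := by group }
  have hfr : f.range ≤ S := by
    rintro _ ⟨x, rfl⟩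
    exact mul_mem x.2 x.2
  have hinv : ∀ n ∈ normalizer ((S : Subgroup G) : Set G), ∀ x ∈ f.range, n * x * n⁻¹ ∈ f.range := by
    rintro n hn _ ⟨x, rfl⟩
    refine ⟨⟨n * x * n⁻¹, (mem_normalizer_iff.1 hn x).1 x.2⟩, ?_⟩
    show n * x * n⁻¹ * (n * x * n⁻¹) = n * (x * x) * n⁻¹
    group
  have hinv2 : ∀ n ∈ normalizer ((S : Subgroup G) : Set G), ∀ x ∈ f.ker.map (S : Subgroup G).subtype,
      n * x * n⁻¹ ∈ f.ker.map (S : Subgroup G).subtype := by
    rintro n hn _ ⟨x, hx, rfl⟩
    refine ⟨⟨n * x * n⁻¹, (mem_normalizer_iff.1 hn x).1 x.2⟩, ?_, rfl⟩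
    have h1 : (x : G) * x = 1 := hx
    show n * x * n⁻¹ * (n * x * n⁻¹) = 1
    calc n * x * n⁻¹ * (n * x * n⁻¹) = n * (x * x) * n⁻¹ := by group
      _ = 1 := by rw [h1]; group
  have h1 := no_inv_two h S hS _ hfr hinv
  have h2 := no_inv_two h S hS (f.ker.map (S : Subgroup G).subtype) (map_subtype_le _) hinv2
  have h3 : Nat.card (f.ker.map (S : Subgroup G).subtype) = Nat.card f.ker :=
    (Nat.card_congr (f.ker.equivMapOfInjective _ (Subgroup.subtype_injective _)).toEquiv).symm
  rw [h3] at h2
  have h4 : Nat.card f.range * Nat.card f.ker = 8 := by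
    rw [← card2 h S, ← f.ker.index_mul_card, Subgroup.index_ker]
  have h5 : Nat.card f.ker ≠ 1 := by
    intro h6
    obtain ⟨x, hx, hxo⟩ := exists_mem_orderOf_eq (S : Subgroup G) 2 (by rw [card2 h S]; norm_num)
    have h7 : (⟨x, hx⟩ : (S : Subgroup G)) ∈ f.ker := by
      show x * x = 1
      rw [← sq, ← hxo, pow_orderOf_eq_one]
    have h8 := Subgroup.card_eq_one.1 h6
    rw [h8, mem_bot] at h7
    have : x = 1 := congrArg Subtype.val h7
    rw [this, orderOf_one] at hxo
    omega
  have h6 : Nat.card f.range = 1 := by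
    have h7 : Nat.card f.range ∣ 8 := Dvd.intro _ h4
    have h8 : Nat.card f.range ≤ 8 := Nat.le_of_dvd (by norm_num) h7
    -- elements of the range are killed: if |range| = 4 then |ker| = 2
    interval_cases hr : Nat.card f.range
    all_goals omega
  intro x hx
  have h7 : f ⟨x, hx⟩ ∈ f.range := ⟨_, rfl⟩
  rw [Subgroup.card_eq_one.1 h6, mem_bot] at h7
  exact h7

/-- elementary abelian Sylow subgroup: `N(S)` is transitive on the involutions -/
theorem trans_elem (h : Nat.card G = 175560) (S : Sylow 2 G) (hS : ∀ x ∈ (S : Subgroup G), x * x = 1)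
    {a b : G} (ha : a ∈ (S : Subgroup G)) (ha1 : a ≠ 1) (hb : b ∈ (S : Subgroup G)) (hb1 : b ≠ 1) :
    ∃ n ∈ normalizer ((S : Subgroup G) : Set G), n * a * n⁻¹ = b := by
  have hcomm : ∀ x ∈ (S : Subgroup G), ∀ y ∈ (S : Subgroup G), x * y = y * x := by
    intro x hx y hy
    have h1 := hS x hx
    have h2 := hS y hy
    have h3 := hS _ (mul_mem hx hy)
    calc x * y = (x * y)⁻¹ := (inv_eq_of_mul_eq_one_left h3).symm
      _ = y⁻¹ * x⁻¹ := mul_inv_rev _ _
      _ = y * x := by rw [inv_eq_of_mul_eq_one_left h1, inv_eq_of_mul_eq_one_left h2]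
  have hSc : IsMulCommutative (S : Subgroup G) :=
    ⟨⟨fun x y => Subtype.ext (hcomm x x.2 y y.2)⟩⟩
  have hfin : Finite (H10Eight.X S) := by
    apply Nat.finite_of_card_ne_zero
    rw [H10Eight.card_X (card2 h S)]; norm_num
  have key := trans_seven (H := normalizer ((S : Subgroup G) : Set G)) (X := H10Eight.X S) (H10Eight.card_X (card2 h S)) ?_ ?_
    ⟨a, ha, ha1⟩ ⟨b, hb, hb1⟩
  · obtain ⟨n, hn⟩ := key
    exact ⟨n, n.2, congrArg Subtype.val hn⟩
  · -- odd orbits
    intro x
    have h0 : Nat.card (MulAction.orbit (normalizer ((S : Subgroup G) : Set G)) x) =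
        (MulAction.stabilizer (normalizer ((S : Subgroup G) : Set G)) x).index := by
      rw [MulAction.index_stabilizer]; rfl
    rw [h0]
    have h1 : (S : Subgroup G).subgroupOf (normalizer ((S : Subgroup G) : Set G)) ≤
        MulAction.stabilizer (normalizer ((S : Subgroup G) : Set G)) x := by
      intro y hy
      rw [MulAction.mem_stabilizer_iff]
      apply Subtype.ext
      show (y : G) * x.1 * (y : G)⁻¹ = x.1
      rw [hcomm y (mem_subgroupOf.1 hy) x.1 x.2.1]
      group
    have h2 := index_dvd_of_le h1
    have h3 : ((S : Subgroup G).subgroupOf (normalizer ((S : Subgroup G) : Set G))).index ∣ (S : Subgroup G).index :=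
      relIndex_dvd_index_of_le le_normalizer
    have h4 : ¬ 2 ∣ (MulAction.stabilizer (normalizer ((S : Subgroup G) : Set G)) x).index := fun h5 =>
      S.not_dvd_index (h5.trans (h2.trans h3))
    omega
  · intro x hx
    obtain ⟨n, hn, hne⟩ := no_fixed h S hSc x.2.1 x.2.2
    apply hne
    have h1 : (⟨n, hn⟩ : normalizer ((S : Subgroup G) : Set G)) • x ∈ MulAction.orbit (normalizer ((S : Subgroup G) : Set G)) x :=
      MulAction.mem_orbit _ _
    have h2 : x ∈ MulAction.orbit (normalizer ((S : Subgroup G) : Set G)) x := MulAction.mem_orbit_self _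
    have hss : Subsingleton (MulAction.orbit (normalizer ((S : Subgroup G) : Set G)) x) := (Nat.card_eq_one_iff_unique.1 hx).1
    have h3 := congrArg Subtype.val (hss.elim ⟨_, h1⟩ ⟨_, h2⟩)
    exact congrArg Subtype.val h3

/-- The two possibilities for a Sylow 2-subgroup. -/
theorem sylow_cases (h : Nat.card G = 175560) (S : Sylow 2 G) :
    (∀ x ∈ (S : Subgroup G), x * x = 1) ∨
    (∃ r s : (S : Subgroup G), orderOf r = 4 ∧ s * s = 1 ∧ s * r * s = r⁻¹ ∧ s ∉ zpowers r) := by
  by_cases hc : IsMulCommutative (S : Subgroup G)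
  · exact Or.inl (elementary h S hc)
  · right
    -- a central involution
    have hnt : Nontrivial (S : Subgroup G) := by
      rw [← Finite.one_lt_card_iff_nontrivial, card2 h S]; norm_num
    have hz := S.2.center_nontrivial
    obtain ⟨z, hz2⟩ : ∃ z : center (S : Subgroup G), orderOf z = 2 := by
      have h2 : 2 ∣ Nat.card (center (S : Subgroup G)) := by
        have h3 : IsPGroup 2 (center (S : Subgroup G)) := S.2.to_subgroup _
        rcases h3.card_eq_or_dvd with h4 | h4
        · exfalso
          have := (Finite.one_lt_card_iff_nontrivial (α := center (S : Subgroup G))).2 hz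
          omega
        · exact h4
      exact exists_prime_orderOf_dvd_card' 2 h2
    have hzo : orderOf ((z : (S : Subgroup G)) : G) = 2 := by
      rw [Subgroup.orderOf_coe, Subgroup.orderOf_coe]; exact hz2
    obtain ⟨g, hg, hgne⟩ := exists_fused h S hzo (z : (S : Subgroup G)).2
    have hgo : orderOf (g * ((z : (S : Subgroup G)) : G) * g⁻¹) = 2 := by
      have : g * ((z : (S : Subgroup G)) : G) * g⁻¹ = MulAut.conj g ((z : (S : Subgroup G)) : G) := rfl
      rw [this, MulEquiv.orderOf_eq]; exact hzo
    set s : (S : Subgroup G) := ⟨g * ((z : (S : Subgroup G)) : G) * g⁻¹, hg⟩ with hs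
    have hss : s * s = 1 := by
      apply Subtype.ext
      have := pow_orderOf_eq_one (s : G)
      rw [show orderOf (s : G) = 2 from hgo, sq] at this
      exact this
    by_cases hsc : ∃ t : (S : Subgroup G), t * s ≠ s * t
    · obtain ⟨r, hr, hsr, hsn⟩ := Simple168.order_eight (T := (S : Subgroup G)) (card2 h S) s hss hsc
      exact ⟨r, s, hr, hss, hsr, hsn⟩
    · exfalso
      push Not at hsc
      -- the centre has order at least 4, so S is abelian
      apply hc
      have hcard : 4 ≤ Nat.card (center (S : Subgroup G)) := by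
        have hsz : s ∈ center (S : Subgroup G) := mem_center_iff.2 hsc
        have h1 : Nat.card (center (S : Subgroup G)) ∣ 8 := by
          rw [← card2 h S]; exact card_subgroup_dvd_card _
        have h2 : 3 ≤ Nat.card (center (S : Subgroup G)) := by
          classical
          have : Fintype (center (S : Subgroup G)) := Fintype.ofFinite _
          rw [Nat.card_eq_fintype_card]
          have h5 : ({1, z, ⟨s, hsz⟩} : Finset (center (S : Subgroup G))).card = 3 := by
            rw [Finset.card_eq_three]
            refine ⟨1, z, ⟨s, hsz⟩, ?_, ?_, ?_, rfl⟩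
            · intro e
              rw [← e, orderOf_one] at hz2
              omega
            · intro e
              have : s = 1 := (congrArg Subtype.val e).symm
              rw [show (g * ((z : (S : Subgroup G)) : G) * g⁻¹) = (s : G) from rfl, this] at hgo
              simp at hgo
            · intro e
              apply hgne
              have : (z : (S : Subgroup G)) = s := congrArg Subtype.val e
              exact (congrArg Subtype.val this).symm
          rw [← h5]
          exact Finset.card_le_univ _
        have h3 : Nat.card (center (S : Subgroup G)) ≤ 8 := Nat.le_of_dvd (by norm_num) h1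
        by_contra hcon
        have h4 : Nat.card (center (S : Subgroup G)) = 3 := by omega
        rw [h4] at h1
        revert h1; decide
      have hidx : (center (S : Subgroup G)).index ≤ 2 := by
        have h1 := (center (S : Subgroup G)).index_mul_card
        rw [card2 h S] at h1
        nlinarith
      -- cyclic quotient
      have hq : IsCyclic ((S : Subgroup G) ⧸ center (S : Subgroup G)) := by
        have h1 : Nat.card ((S : Subgroup G) ⧸ center (S : Subgroup G)) = 1 ∨
            Nat.card ((S : Subgroup G) ⧸ center (S : Subgroup G)) = 2 := by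
          rw [← index_eq_card]
          have : (center (S : Subgroup G)).index ≠ 0 := index_ne_zero_of_finite
          omega
        rcases h1 with h1 | h1
        · have : Subsingleton ((S : Subgroup G) ⧸ center (S : Subgroup G)) := (Nat.card_eq_one_iff_unique.1 h1).1
          exact isCyclic_of_subsingleton
        · exact isCyclic_of_prime_card h1
      exact MonoidHom.isMulCommutative_of_isCyclic_of_ker_le_center (QuotientGroup.mk' (center (S : Subgroup G)))
        (by rw [QuotientGroup.ker_mk'])

/-- the dihedral case: generators -/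
theorem closure_dihedral {T : Type*} [Group T] [Finite T] (hT : Nat.card T = 8) {r s : T} (hr : orderOf r = 4)
    (hsn : s ∉ zpowers r) : closure {r, s} = ⊤ := by
  have hidx : (zpowers r).index = 2 := by
    have := (zpowers r).index_mul_card
    rw [Nat.card_zpowers, hr, hT] at this
    omega
  have h8 : zpowers r ≤ closure {r, s} := by
    rw [zpowers_le]; exact subset_closure (by simp)
  have h9 : (closure {r, s}).index ∣ 2 := by
    have h9' := index_dvd_of_le h8
    rwa [hidx] at h9'
  rcases (Nat.dvd_prime Nat.prime_two).1 h9 with h10 | h10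
  · exact index_eq_one.1 h10
  · exfalso
    apply hsn
    have h11 : zpowers r = closure {r, s} := by
      apply eq_of_le_of_card_ge h8
      have e1 := (zpowers r).index_mul_card
      have e2 := (closure {r, s}).index_mul_card
      rw [hidx] at e1
      rw [h10] at e2
      omega
    rw [h11]
    exact subset_closure (by simp)

/-- one class of involutions -/
theorem one_class (h : Nat.card G = 175560) {x y : G} (hx : orderOf x = 2) (hy : orderOf y = 2) : IsConj x y := by
  obtain ⟨S⟩ : Nonempty (Sylow 2 G) := inferInstance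
  rcases sylow_cases h S with hS | ⟨r, s, hr, hs, hsr, hsn⟩
  · have key : ∀ v : G, orderOf v = 2 → ∃ g : G, g * v * g⁻¹ ∈ (S : Subgroup G) ∧ g * v * g⁻¹ ≠ 1 := by
      intro v hv
      have hp : IsPGroup 2 (zpowers v) := by
        rw [IsPGroup.iff_card]
        exact ⟨1, by rw [Nat.card_zpowers, hv, pow_one]⟩
      obtain ⟨Q, hQ⟩ := hp.exists_le_sylow
      obtain ⟨g, hg⟩ := MulAction.exists_smul_eq G Q S
      refine ⟨g, ?_, ?_⟩
      · have h1 : g * v * g⁻¹ ∈ (g • Q : Sylow 2 G) := by
          rw [Sylow.smul_def]; exact ⟨v, hQ (mem_zpowers v), rfl⟩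
        rw [hg] at h1
        exact h1
      · intro h1
        have : v = 1 := by
          rw [mul_inv_eq_one] at h1
          exact mul_left_cancel (a := g) (by rw [h1, mul_one])
        rw [this, orderOf_one] at hv
        omega
    obtain ⟨g, hg, hg1⟩ := key x hx
    obtain ⟨k, hk, hk1⟩ := key y hy
    obtain ⟨n, -, hn2⟩ := trans_elem h S hS hg hg1 hk hk1
    rw [isConj_iff]
    refine ⟨k⁻¹ * n * g, ?_⟩
    calc k⁻¹ * n * g * x * (k⁻¹ * n * g)⁻¹ = k⁻¹ * (n * (g * x * g⁻¹) * n⁻¹) * k := by group
      _ = k⁻¹ * (k * y * k⁻¹) * k := by rw [hn2]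
      _ = y := by group
  · have e : Nonempty ((S : Subgroup G) ≃* DihedralGroup (2 ^ 2)) :=
      Cfsg.Agent.Lib.DihedralHom.nonempty_mulEquiv (by norm_num) r s hr hs hsr hsn (closure_dihedral (card2 h S) hr hsn)
    obtain ⟨g, hg⟩ := Cfsg.Agent.S0107.result S 2 le_rfl e (pResidual_top h) x y hx hy
    exact isConj_iff.2 ⟨g, hg⟩

end Order

end Cfsg.Agent.Lib.H10J175
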