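import Cfsg.Agent.Lib.H10TCI
import Cfsg.Agent.Lib.SylowTools
import Cfsg.Agent.Lib.AutAlt
import Cfsg.Agent.Lib.SmallSimple

set_option autoImplicit false
set_option linter.unusedSectionVars false

/-!
# Weak closure `2 × A₅` of a 2-central involution: local analysis
-/

namespace Cfsg.Agent.Lib.H10Wk

open Cfsg Subgroup Cfsg.Agent.Lib
open Cfsg.Agent.Lib.H10TCI (TF tf5)

/-- all involutions of `A₅` are conjugate -/
theorem a5_t6 : ∀ a : alternatingGroup (Fin 5), (a * a = 1 ∧ a ≠ 1) → ∀ b : alternatingGroup (Fin 5),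
    (b * b = 1 ∧ b ≠ 1) → ∃ x : alternatingGroup (Fin 5), x * a = b * x := by decide +kernel

theorem a5_center : ∀ a : alternatingGroup (Fin 5), (∀ b : alternatingGroup (Fin 5), a * b = b * a) → a = 1 := by
  decide +kernel

set_option synthInstance.maxHeartbeats 400000 in
set_option synthInstance.maxSize 2000 in
theorem s5_t3 : ∀ a : alternatingGroup (Fin 5), (a * a = 1 ∧ a ≠ 1) → ∀ b : alternatingGroup (Fin 5),
    (b * b = 1 ∧ b ≠ 1 ∧ a ≠ b ∧ a * b = b * a) → ∀ x : Equiv.Perm (Fin 5),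
    (x * a = a * x ∧ x * b = b * x) → Equiv.Perm.sign x = 1 := by decide +kernel

/-- The situation: `t` an involution in the centre of the Sylow 2-subgroup `S`, `T ≅ A₅` is normalized by `C(t)`, the conjugates
of `t` commuting with `t` lie in `⟨t⟩ × T`, and `S ∩ T = {1, a, b, ab}`. -/
structure WL {G : Type*} [Group G] (t : G) (T : Subgroup G) (S : Sylow 2 G) (a b : G) : Prop where
  ord : orderOf t = 2
  tS : t ∈ (S : Subgroup G)
  cS : ∀ s ∈ (S : Subgroup G), s * t = t * s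
  e5 : Nonempty (T ≃* alternatingGroup (Fin 5))
  comm : ∀ x ∈ T, x * t = t * x
  nT : ∀ c : G, c * t = t * c → ∀ x ∈ T, c * x * c⁻¹ ∈ T
  wc : ∀ g : G, (g * t * g⁻¹) * t = t * (g * t * g⁻¹) → g * t * g⁻¹ ∈ T ∨ g * t * g⁻¹ * t ∈ T
  ex : ∃ g : G, (g * t * g⁻¹) * t = t * (g * t * g⁻¹) ∧ g * t * g⁻¹ ≠ t
  aT : a ∈ T
  bT : b ∈ T
  aS : a ∈ (S : Subgroup G)
  bS : b ∈ (S : Subgroup G)
  aa : a * a = 1
  bb : b * b = 1
  a1 : a ≠ 1
  b1 : b ≠ 1
  ab : a ≠ b
  cab : a * b = b * a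
  all : ∀ p ∈ (S : Subgroup G), p ∈ T → p = 1 ∨ p = a ∨ p = b ∨ p = a * b

namespace WL

variable {G : Type*} [Group G] {t : G} {T : Subgroup G} {S : Sylow 2 G} {a b : G} (h : WL t T S a b)
include h

theorem tf : TF T := by
  obtain ⟨e⟩ := h.e5
  exact TF.congr e tf5

theorem tt : t * t = 1 := by
  have := pow_orderOf_eq_one t
  rwa [h.ord, sq] at this

theorem t1 : t ≠ 1 := by
  rintro e
  have := h.ord
  rw [e, orderOf_one] at this
  omega

theorem ti : t⁻¹ = t := inv_eq_of_mul_eq_one_left h.tt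

theorem center_T {x : G} (hx : x ∈ T) (hc : ∀ y ∈ T, x * y = y * x) : x = 1 := by
  obtain ⟨e⟩ := h.e5
  have h1 : e ⟨x, hx⟩ = 1 := by
    apply a5_center
    intro b
    obtain ⟨y, rfl⟩ := e.surjective b
    rw [← map_mul, ← map_mul]
    exact congrArg e (Subtype.ext (hc y y.2))
  have h2 : (⟨x, hx⟩ : T) = 1 := e.injective (h1.trans (map_one e).symm)
  exact congrArg Subtype.val h2

theorem notin : t ∉ T := fun ht => h.t1 (h.center_T ht (fun y hy => (h.comm y hy).symm))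

/-- all involutions of `T` are `T`-conjugate -/
theorem T_conj {x y : G} (hx : x ∈ T) (hxx : x * x = 1) (hx1 : x ≠ 1) (hy : y ∈ T) (hyy : y * y = 1) (hy1 : y ≠ 1) :
    ∃ w ∈ T, w * x * w⁻¹ = y := by
  obtain ⟨e⟩ := h.e5
  obtain ⟨w, hw⟩ := a5_t6 (e ⟨x, hx⟩) ⟨by rw [← map_mul, show (⟨x, hx⟩ : T) * ⟨x, hx⟩ = 1 from Subtype.ext hxx, map_one],
    fun e1 => hx1 (congrArg Subtype.val (e.injective (e1.trans (map_one e).symm)))⟩
    (e ⟨y, hy⟩) ⟨by rw [← map_mul, show (⟨y, hy⟩ : T) * ⟨y, hy⟩ = 1 from Subtype.ext hyy, map_one],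
    fun e1 => hy1 (congrArg Subtype.val (e.injective (e1.trans (map_one e).symm)))⟩
  obtain ⟨w', rfl⟩ := e.surjective w
  rw [← map_mul, ← map_mul] at hw
  have h1 := congrArg Subtype.val (e.injective hw)
  refine ⟨w', w'.2, ?_⟩
  rw [mul_inv_eq_iff_eq_mul]
  exact h1

theorem swap : WL t T S b a where
  __ := h
  aT := h.bT
  bT := h.aT
  aS := h.bS
  bS := h.aS
  aa := h.bb
  bb := h.aa
  a1 := h.b1
  b1 := h.a1
  ab := h.ab.symm
  cab := h.cab.symm
  all p hp hpT := by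
    rcases h.all p hp hpT with e | e | e | e
    · exact Or.inl e
    · exact Or.inr (Or.inr (Or.inl e))
    · exact Or.inr (Or.inl e)
    · exact Or.inr (Or.inr (Or.inr (by rw [e, h.cab])))

/-- the subgroup `V = S ∩ ⟨t⟩T` -/
def V : Subgroup G where
  carrier := {x | x ∈ (S : Subgroup G) ∧ (x ∈ T ∨ x * t ∈ T)}
  one_mem' := ⟨one_mem _, Or.inl (one_mem _)⟩
  mul_mem' := by
    rintro x y ⟨hx, hx2⟩ ⟨hy, hy2⟩
    refine ⟨mul_mem hx hy, ?_⟩
    have hyt := h.cS y hy
    rcases hx2 with hx2 | hx2 <;> rcases hy2 with hy2 | hy2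
    · exact Or.inl (T.mul_mem hx2 hy2)
    · right; rw [mul_assoc]; exact T.mul_mem hx2 hy2
    · right
      have : x * y * t = (x * t) * y := by rw [mul_assoc, hyt, ← mul_assoc]
      rw [this]; exact T.mul_mem hx2 hy2
    · left
      have : x * y = (x * t) * (y * t) := by
        calc x * y = x * y * (t * t) := by rw [h.tt, mul_one]
          _ = x * (y * t) * t := by group
          _ = x * (t * y) * t := by rw [hyt]
          _ = _ := by group
      rw [this]; exact T.mul_mem hx2 hy2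
  inv_mem' := by
    rintro x ⟨hx, hx2⟩
    refine ⟨inv_mem hx, ?_⟩
    have hxt := h.cS x hx
    rcases hx2 with hx2 | hx2
    · exact Or.inl (T.inv_mem hx2)
    · right
      have : x⁻¹ * t = (x * t)⁻¹ := by
        rw [mul_inv_rev, h.ti, eq_comm, mul_inv_eq_iff_eq_mul, mul_assoc, eq_inv_mul_iff_mul_eq]
        exact hxt
      rw [this]; exact T.inv_mem hx2

theorem mem_V {x : G} : x ∈ h.V ↔ x ∈ (S : Subgroup G) ∧ (x ∈ T ∨ x * t ∈ T) := Iff.rfl

theorem tV : t ∈ h.V := ⟨h.tS, Or.inr (by rw [h.tt]; exact one_mem _)⟩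
theorem aV : a ∈ h.V := ⟨h.aS, Or.inl h.aT⟩
theorem bV : b ∈ h.V := ⟨h.bS, Or.inl h.bT⟩
theorem V_le : h.V ≤ S := fun _ hx => hx.1

/-- the eight elements of `V` -/
theorem V_cases {x : G} (hx : x ∈ h.V) : (x = 1 ∨ x = a ∨ x = b ∨ x = a * b) ∨ (x = t ∨ x = a * t ∨ x = b * t ∨ x = a * b * t) := by
  obtain ⟨hxS, hx2 | hx2⟩ := hx
  · exact Or.inl (h.all x hxS hx2)
  · right
    have h1 := h.all _ (mul_mem hxS h.tS) hx2
    have key : ∀ y, x * t = y → x = y * t := by
      intro y hy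
      rw [← hy, mul_assoc, h.tt, mul_one]
    rcases h1 with e | e | e | e
    · left; rw [key _ e, one_mul]
    · right; left; exact key _ e
    · right; right; left; exact key _ e
    · right; right; right; exact key _ e

theorem at' : a * t = t * a := h.comm a h.aT
theorem bt' : b * t = t * b := h.comm b h.bT

/-- anything commuting with `t, a, b` centralizes `V` -/
theorem comm_V {x : G} (ht : x * t = t * x) (ha : x * a = a * x) (hb : x * b = b * x) : ∀ y ∈ h.V, x * y = y * x := by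
  intro y hy
  have c1 : Commute x t := ht
  have c2 : Commute x a := ha
  have c3 : Commute x b := hb
  rcases h.V_cases hy with (e | e | e | e) | (e | e | e | e) <;> rw [e]
  · simp
  · exact c2.eq
  · exact c3.eq
  · exact (c2.mul_right c3).eq
  · exact c1.eq
  · exact (c2.mul_right c1).eq
  · exact (c3.mul_right c1).eq
  · exact ((c2.mul_right c3).mul_right c1).eq

theorem V_comm : ∀ x ∈ h.V, ∀ y ∈ h.V, x * y = y * x := by
  intro x hx
  apply h.comm_V (h.cS x hx.1)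
  · exact (h.comm_V h.at' rfl h.cab x hx).symm
  · exact (h.comm_V h.bt' h.cab.symm rfl x hx).symm

theorem V_sq : ∀ x ∈ h.V, x * x = 1 := by
  intro x hx
  have c1 : Commute a b := h.cab
  have c2 : Commute a t := h.at'
  have c3 : Commute b t := h.bt'
  have key : ∀ u v : G, Commute u v → u * u = 1 → v * v = 1 → (u * v) * (u * v) = 1 := by
    intro u v huv hu hv
    calc (u * v) * (u * v) = u * (v * u) * v := by group
      _ = u * (u * v) * v := by rw [huv.eq]
      _ = (u * u) * (v * v) := by group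
      _ = 1 := by rw [hu, hv, mul_one]
  rcases h.V_cases hx with (e | e | e | e) | (e | e | e | e) <;> rw [e]
  · rw [mul_one]
  · exact h.aa
  · exact h.bb
  · exact key _ _ c1 h.aa h.bb
  · exact h.tt
  · exact key _ _ c2 h.aa h.tt
  · exact key _ _ c3 h.bb h.tt
  · exact key _ _ (c2.mul_left c3) (key _ _ c1 h.aa h.bb) h.tt

theorem ne_ab : a * b ≠ 1 := by
  intro e
  apply h.ab
  have : b = a⁻¹ := (inv_eq_of_mul_eq_one_right e).symm
  rw [this, inv_eq_of_mul_eq_one_left h.aa]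

theorem ne_ab_a : a * b ≠ a := fun e => h.b1 (mul_left_cancel (a := a) (by rw [e, mul_one]))
theorem ne_ab_b : a * b ≠ b := fun e => h.a1 (mul_right_cancel (b := b) (by rw [e, one_mul]))

/-- the rotation -/
theorem exists_rot : ∃ y ∈ T, y * a * y⁻¹ = b ∧ y * b * y⁻¹ = a * b ∧ y * (a * b) * y⁻¹ = a ∧ y * y * y = 1 ∧ y * t = t * y := by
  obtain ⟨x, h1, h2, h3⟩ := h.tf.t4 ⟨a, h.aT⟩ ⟨Subtype.ext h.aa, fun e => h.a1 (congrArg Subtype.val e)⟩
      ⟨b, h.bT⟩ ⟨Subtype.ext h.bb, fun e => h.b1 (congrArg Subtype.val e),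
      fun e => h.ab (congrArg Subtype.val e), Subtype.ext h.cab⟩
  have h1' : (x : G) * a = b * x := congrArg Subtype.val h1
  have h2' : (x : G) * b = a * b * x := congrArg Subtype.val h2
  have h3' : (x : G) * x * x = 1 := congrArg Subtype.val h3
  have e1 : (x : G) * a * (x : G)⁻¹ = b := by rw [h1']; group
  have e2 : (x : G) * b * (x : G)⁻¹ = a * b := by rw [h2']; group
  refine ⟨x, x.2, e1, e2, ?_, h3', h.comm x x.2⟩
  calc (x : G) * (a * b) * (x : G)⁻¹ = ((x : G) * a * (x : G)⁻¹) * ((x : G) * b * (x : G)⁻¹) := by group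
    _ = b * (a * b) := by rw [e1, e2]
    _ = b * (b * a) := by rw [h.cab]
    _ = (b * b) * a := by group
    _ = a := by rw [h.bb, one_mul]

/-- conjugates of `t` in `S` lie in `V` -/
theorem conj_mem_V {g : G} (hg : g * t * g⁻¹ ∈ (S : Subgroup G)) : g * t * g⁻¹ ∈ h.V :=
  ⟨hg, h.wc g (h.cS _ hg)⟩

/-- a conjugate of `t` commuting with `t` and different from `t` is `T`-conjugate to `a` or `a t` -/
theorem conj_into {g : G} (hg : (g * t * g⁻¹) * t = t * (g * t * g⁻¹)) (hne : g * t * g⁻¹ ≠ t) :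
    ∃ w ∈ T, w * (g * t * g⁻¹) * w⁻¹ = a ∨ w * (g * t * g⁻¹) * w⁻¹ = a * t := by
  set x := g * t * g⁻¹ with hx
  have hxx : x * x = 1 := by
    rw [hx]
    calc g * t * g⁻¹ * (g * t * g⁻¹) = g * (t * t) * g⁻¹ := by group
      _ = 1 := by rw [h.tt]; group
  have hx1 : x ≠ 1 := by
    intro e
    rw [hx, mul_inv_eq_one] at e
    exact h.t1 (mul_left_cancel (a := g) (by rw [e, mul_one]))
  rcases h.wc g hg with h1 | h1
  · obtain ⟨w, hw, hw2⟩ := h.T_conj h1 hxx hx1 h.aT h.aa h.a1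
    exact ⟨w, hw, Or.inl hw2⟩
  · have h2 : x * t * (x * t) = 1 := by
      calc x * t * (x * t) = x * (t * x) * t := by group
        _ = x * (x * t) * t := by rw [← hg]
        _ = (x * x) * (t * t) := by group
        _ = 1 := by rw [hxx, h.tt, mul_one]
    have h3 : x * t ≠ 1 := by
      intro e
      apply hne
      rw [← h.ti]
      exact eq_inv_of_mul_eq_one_left e
    obtain ⟨w, hw, hw2⟩ := h.T_conj h1 h2 h3 h.aT h.aa h.a1
    refine ⟨w, hw, Or.inr ?_⟩
    have hwt := h.comm w hw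
    calc w * x * w⁻¹ = w * x * (t * t) * w⁻¹ := by rw [h.tt, mul_one]
      _ = w * (x * t) * (w⁻¹ * w) * t * w⁻¹ := by group
      _ = (w * (x * t) * w⁻¹) * (w * t) * w⁻¹ := by group
      _ = a * (t * w) * w⁻¹ := by rw [hw2, hwt]
      _ = a * t := by group

/-- being conjugate to `t` -/
def Cl (_h : WL t T S a b) (x : G) : Prop := ∃ g : G, g * t * g⁻¹ = x

theorem Cl.conj {x : G} (hx : h.Cl x) (m : G) : h.Cl (m * x * m⁻¹) := by
  obtain ⟨g, rfl⟩ := hx
  exact ⟨m * g, by group⟩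

theorem Cl_cases : (h.Cl a ∧ h.Cl b ∧ h.Cl (a * b)) ∨ (h.Cl (a * t) ∧ h.Cl (b * t) ∧ h.Cl (a * b * t)) := by
  obtain ⟨g, hg, hne⟩ := h.ex
  obtain ⟨w, hw, hw2⟩ := h.conj_into hg hne
  obtain ⟨y, hyT, y1, y2, y3, y4, y5⟩ := h.exists_rot
  have hcl : ∀ x, w * (g * t * g⁻¹) * w⁻¹ = x → h.Cl x := fun x hx => ⟨w * g, by rw [← hx]; group⟩
  have rot : ∀ u v : G, y * u * y⁻¹ = v → h.Cl u → h.Cl v := fun u v huv hu => huv ▸ hu.conj h y
  have rot' : ∀ u v : G, y * u * y⁻¹ = v → h.Cl (u * t) → h.Cl (v * t) := by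
    intro u v huv hu
    have : y * (u * t) * y⁻¹ = v * t := by
      rw [← huv]
      calc y * (u * t) * y⁻¹ = y * u * (t * y⁻¹) := by group
        _ = y * u * (y⁻¹ * t) := by
          congr 1
          rw [eq_inv_mul_iff_mul_eq, ← mul_assoc, y5]; group
        _ = _ := by group
    rw [← this]
    exact hu.conj h y
  rcases hw2 with hw2 | hw2
  · left
    have c1 := hcl _ hw2
    have c2 := rot _ _ y1 c1
    exact ⟨c1, c2, rot _ _ y2 c2⟩
  · right
    have c1 := hcl _ hw2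
    have c2 := rot' _ _ y1 c1
    exact ⟨c1, c2, rot' _ _ y2 c2⟩

/-- `V` is generated by conjugates of `t` -/
theorem V_eq : h.V = closure {x : G | x ∈ (S : Subgroup G) ∧ h.Cl x} := by
  apply le_antisymm
  · set K := closure {x : G | x ∈ (S : Subgroup G) ∧ h.Cl x} with hK
    have hin : ∀ x, x ∈ (S : Subgroup G) → h.Cl x → x ∈ K := fun x h1 h2 => subset_closure ⟨h1, h2⟩
    have ht : t ∈ K := hin _ h.tS ⟨1, by group⟩
    have hab : a ∈ K ∧ b ∈ K := by
      rcases h.Cl_cases with ⟨c1, c2, -⟩ | ⟨c1, c2, -⟩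
      · exact ⟨hin _ h.aS c1, hin _ h.bS c2⟩
      · have d1 := K.mul_mem (hin _ (mul_mem h.aS h.tS) c1) ht
        have d2 := K.mul_mem (hin _ (mul_mem h.bS h.tS) c2) ht
        rw [mul_assoc, h.tt, mul_one] at d1 d2
        exact ⟨d1, d2⟩
    intro x hx
    rcases h.V_cases hx with (e | e | e | e) | (e | e | e | e) <;> rw [e]
    · exact one_mem _
    · exact hab.1
    · exact hab.2
    · exact K.mul_mem hab.1 hab.2
    · exact ht
    · exact K.mul_mem hab.1 ht
    · exact K.mul_mem hab.2 ht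
    · exact K.mul_mem (K.mul_mem hab.1 hab.2) ht
  · rw [closure_le]
    rintro x ⟨hx, g, rfl⟩
    exact h.conj_mem_V hx

/-- `V` is weakly closed in `S` -/
theorem weakly_closed [Finite G] {g : G} (hg : ∀ x ∈ h.V, g * x * g⁻¹ ∈ (S : Subgroup G)) : g ∈ normalizer (h.V : Set G) := by
  apply SylowTools.mem_normalizer_of_forall
  have h1 : h.V.map (MulAut.conj g).toMonoidHom ≤ h.V := by
    conv_lhs => rw [h.V_eq]
    rw [MonoidHom.map_closure, closure_le]
    rintro _ ⟨x, ⟨hx, hcl⟩, rfl⟩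
    have hxV : x ∈ h.V := by rw [h.V_eq]; exact subset_closure ⟨hx, hcl⟩
    obtain ⟨k, hk⟩ := hcl.conj h g
    show g * x * g⁻¹ ∈ h.V
    rw [← hk]
    apply h.conj_mem_V
    rw [hk]
    exact hg x hxV
  intro x hx
  exact h1 ⟨x, hx, rfl⟩

theorem S_le_N [Finite G] : (S : Subgroup G) ≤ normalizer (h.V : Set G) := by
  intro s hs
  apply h.weakly_closed
  intro x hx
  exact mul_mem (mul_mem hs hx.1) (inv_mem hs)

theorem V_two [Finite G] : IsPGroup 2 h.V := S.2.to_le h.V_le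

/-- fusion control -/
theorem control [Finite G] {x y g : G} (hx : ∀ v ∈ h.V, v * x = x * v) (hy : ∀ v ∈ h.V, v * y = y * v) (hg : g * x * g⁻¹ = y) :
    ∃ n ∈ normalizer (h.V : Set G), n * x * n⁻¹ = y ∧ n * g⁻¹ * y = y * (n * g⁻¹) := by
  set K := centralizer ({y} : Set G) with hK
  have hVK : h.V ≤ K := fun v hv => mem_centralizer_singleton_iff.2 (hy v hv)
  obtain ⟨P0, hVP, hPK, hP2, hPidx⟩ := SylowTools.exists_sylow_of_subgroup hVK h.V_two
  have hV' : h.V.map (MulAut.conj g).toMonoidHom ≤ K := by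
    rintro _ ⟨v, hv, rfl⟩
    apply mem_centralizer_singleton_iff.2
    show g * v * g⁻¹ * y = y * (g * v * g⁻¹)
    rw [← hg]
    have := hx v hv
    calc g * v * g⁻¹ * (g * x * g⁻¹) = g * (v * x) * g⁻¹ := by group
      _ = g * (x * v) * g⁻¹ := by rw [this]
      _ = _ := by group
  obtain ⟨k, hk, hk2⟩ := SylowTools.conj_into_of_sylow_of_subgroup hPK hP2 hPidx hV' (h.V_two.map _)
  obtain ⟨m, hm⟩ := SylowTools.conj_into_sylow S hP2
  have h1 : m ∈ normalizer (h.V : Set G) := h.weakly_closed (fun v hv => hm v (hVP hv))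
  have h2 : m * (k * g) ∈ normalizer (h.V : Set G) := by
    apply h.weakly_closed
    intro v hv
    have h3 := hm _ (hk2 (g * v * g⁻¹) ⟨v, hv, rfl⟩)
    have : m * (k * g) * v * (m * (k * g))⁻¹ = m * (k * (g * v * g⁻¹) * k⁻¹) * m⁻¹ := by group
    rw [this]; exact h3
  have h3 : k * g ∈ normalizer (h.V : Set G) := by
    have := (normalizer (h.V : Set G)).mul_mem ((normalizer (h.V : Set G)).inv_mem h1) h2
    rwa [inv_mul_cancel_left] at this
  have hky : k * y = y * k := mem_centralizer_singleton_iff.1 hk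
  refine ⟨k * g, h3, ?_, ?_⟩
  · calc k * g * x * (k * g)⁻¹ = k * (g * x * g⁻¹) * k⁻¹ := by group
      _ = k * y * k⁻¹ := by rw [hg]
      _ = y := by rw [hky]; group
  · rw [mul_inv_cancel_right]; exact hky

end WL

end Cfsg.Agent.Lib.H10Wk
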