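import Cfsg.Agent.Lib.H10Wk1

set_option autoImplicit false
set_option linter.unusedSectionVars false

/-!
# Weak closure `2 × A₅`: transitivity on `V`, the Sylow subgroup centralizes `V`, structure of `C(t)`
-/

namespace Cfsg.Agent.Lib.H10Wk

open Cfsg Subgroup Cfsg.Agent.Lib
open Cfsg.Agent.Lib.H10TCI (TF tf5)

namespace WL

variable {G : Type*} [Group G] [Finite G] {t : G} {T : Subgroup G} {S : Sylow 2 G} {a b : G} (h : WL t T S a b)
include h

/-- the number of `N(V)`-conjugates of `t` is odd -/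
theorem card_O : Nat.card {x : normalizer (h.V : Set G) // IsConj (⟨t, le_normalizer h.tV⟩ : normalizer (h.V : Set G)) x} % 2 = 1 := by
  set N := normalizer (h.V : Set G) with hN
  set t' : N := ⟨t, le_normalizer h.tV⟩ with ht'
  have h1 := SmallSimple.card_isConj_mul_card_centralizer t'
  have hSN := h.S_le_N
  have h2 : (S : Subgroup G).subgroupOf N ≤ centralizer ({t'} : Set N) := by
    intro s hs
    rw [mem_centralizer_singleton_iff]
    exact Subtype.ext (h.cS s (mem_subgroupOf.1 hs))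
  have h3 : (centralizer ({t'} : Set N)).index = Nat.card {x : N // IsConj t' x} := by
    have h4 := (centralizer ({t'} : Set N)).index_mul_card
    rw [← h1] at h4
    exact Nat.eq_of_mul_eq_mul_right Nat.card_pos h4
  rw [← h3]
  have h5 := index_dvd_of_le h2
  have h6 : ((S : Subgroup G).subgroupOf N).index ∣ (S : Subgroup G).index := relIndex_dvd_index_of_le hSN
  have h7 : ¬ 2 ∣ (centralizer ({t'} : Set N)).index := fun h8 => S.not_dvd_index (h8.trans (h5.trans h6))
  omega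

/-- `O x`: `x` is an `N(V)`-conjugate of `t` -/
def O (x : G) : Prop := ∃ n ∈ normalizer (h.V : Set G), n * t * n⁻¹ = x

theorem O_of_Cl {x : G} (hx : x ∈ h.V) (hcl : h.Cl x) : h.O x := by
  obtain ⟨g, hg⟩ := hcl
  obtain ⟨n, hn, hn2, -⟩ := h.control (x := t) (y := x) (g := g) (fun v hv => h.cS v hv.1)
    (fun v hv => h.V_comm v hv x hx) hg
  exact ⟨n, hn, hn2⟩

theorem O_mem {x : G} (hx : h.O x) : x ∈ h.V := by
  obtain ⟨n, hn, rfl⟩ := hx
  exact (mem_normalizer_iff.1 hn t).1 h.tV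

theorem O.conj {x : G} (hx : h.O x) {m : G} (hm : m ∈ normalizer (h.V : Set G)) : h.O (m * x * m⁻¹) := by
  obtain ⟨n, hn, rfl⟩ := hx
  exact ⟨m * n, mul_mem hm hn, by group⟩

/-- a set with exactly four elements satisfying `O` is impossible -/
theorem not_four (p q r : G) (hp : p ∈ h.V) (hq : q ∈ h.V) (hr : r ∈ h.V) (op : h.O p) (oq : h.O q) (or' : h.O r)
    (d1 : p ≠ t) (d2 : q ≠ t) (d3 : r ≠ t) (d4 : p ≠ q) (d5 : p ≠ r) (d6 : q ≠ r)
    (hall : ∀ x, h.O x → x = t ∨ x = p ∨ x = q ∨ x = r) : False := by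
  classical
  have hodd := h.card_O
  set N := normalizer (h.V : Set G) with hN
  set t' : N := ⟨t, le_normalizer h.tV⟩ with ht'
  have hVN : h.V ≤ N := le_normalizer
  have key : ∀ x : N, IsConj t' x ↔ h.O (x : G) := by
    intro x
    rw [isConj_iff]
    constructor
    · rintro ⟨c, hc⟩
      exact ⟨c, c.2, congrArg Subtype.val hc⟩
    · rintro ⟨n, hn, hn2⟩
      exact ⟨⟨n, hn⟩, Subtype.ext hn2⟩
  have e : Nat.card {x : N // IsConj t' x} = 4 := by
    have h1 : {x : N | IsConj t' x} = ({t', ⟨p, hVN hp⟩, ⟨q, hVN hq⟩, ⟨r, hVN hr⟩} : Finset N) := by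
      ext x
      simp only [Set.mem_ofPred_eq, Finset.coe_insert, Finset.coe_singleton, Set.mem_insert_iff, Set.mem_singleton_iff]
      rw [key]
      constructor
      · intro hx
        rcases hall _ hx with e | e | e | e
        · exact Or.inl (Subtype.ext e)
        · exact Or.inr (Or.inl (Subtype.ext e))
        · exact Or.inr (Or.inr (Or.inl (Subtype.ext e)))
        · exact Or.inr (Or.inr (Or.inr (Subtype.ext e)))
      · rintro (e | e | e | e) <;> rw [e]
        · exact ⟨1, one_mem _, by rw [ht']; group⟩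
        · exact op
        · exact oq
        · exact or'
    have h2 : Nat.card {x : N // IsConj t' x} = ({x : N | IsConj t' x} : Set N).ncard := rfl
    rw [h2, h1, Set.ncard_coe_finset]
    have n1 : t' ≠ ⟨p, hVN hp⟩ := fun e => d1 (congrArg Subtype.val e).symm
    have n2 : t' ≠ ⟨q, hVN hq⟩ := fun e => d2 (congrArg Subtype.val e).symm
    have n3 : t' ≠ ⟨r, hVN hr⟩ := fun e => d3 (congrArg Subtype.val e).symm
    have n4 : (⟨p, hVN hp⟩ : N) ≠ ⟨q, hVN hq⟩ := fun e => d4 (congrArg Subtype.val e)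
    have n5 : (⟨p, hVN hp⟩ : N) ≠ ⟨r, hVN hr⟩ := fun e => d5 (congrArg Subtype.val e)
    have n6 : (⟨q, hVN hq⟩ : N) ≠ ⟨r, hVN hr⟩ := fun e => d6 (congrArg Subtype.val e)
    rw [Finset.card_insert_of_notMem (by simp [n1, n2, n3]), Finset.card_insert_of_notMem (by simp [n4, n5]),
      Finset.card_insert_of_notMem (by simp [n6]), Finset.card_singleton]
  rw [e] at hodd
  omega

/-- `N(V)` is transitive on the involutions of `V` -/
theorem O_all {x : G} (hx : x ∈ h.V) (hx1 : x ≠ 1) : h.O x := by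
  obtain ⟨y, hyT, y1, y2, y3, y4, y5⟩ := h.exists_rot
  have hyi : y * t * y⁻¹ = t := by rw [y5]; group
  have hyN : y ∈ normalizer (h.V : Set G) := by
    apply SylowTools.mem_normalizer_of_forall
    intro x hx
    have e1 : ∀ u v : G, y * (u * v) * y⁻¹ = (y * u * y⁻¹) * (y * v * y⁻¹) := fun u v => by group
    rcases h.V_cases hx with (e | e | e | e) | (e | e | e | e) <;> rw [e]
    · simp
    · rw [y1]; exact h.bV
    · rw [y2]; exact mul_mem h.aV h.bV
    · rw [y3]; exact h.aV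
    · rw [hyi]; exact h.tV
    · rw [e1, y1, hyi]; exact mul_mem h.bV h.tV
    · rw [e1, y2, hyi]; exact mul_mem (mul_mem h.aV h.bV) h.tV
    · rw [e1, y3, hyi]; exact mul_mem h.aV h.tV
  have aT' := h.aT
  have bT' := h.bT
  have nT' : ∀ u ∈ T, u ≠ t := fun u hu e => h.notin (e ▸ hu)
  have nT2 : ∀ u, u ≠ 1 → u * t ≠ t := fun u hu e => hu (mul_right_cancel (b := t) (by rw [e, one_mul]))
  have nT3 : ∀ u ∈ T, ∀ v ∈ T, u ≠ v * t := by
    intro u hu v hv e
    apply h.notin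
    have : t = v⁻¹ * u := by rw [e]; group
    rw [this]
    exact T.mul_mem (T.inv_mem hv) hu
  have rot : ∀ u v : G, y * u * y⁻¹ = v → h.O u → h.O v := fun u v huv hu => huv ▸ hu.conj h hyN
  have rot' : ∀ u v : G, y * u * y⁻¹ = v → h.O (u * t) → h.O (v * t) := by
    intro u v huv hu
    have : y * (u * t) * y⁻¹ = v * t := by
      rw [← huv]
      calc y * (u * t) * y⁻¹ = (y * u * y⁻¹) * (y * t * y⁻¹) := by group
        _ = _ := by rw [hyi]
    rw [← this]
    exact hu.conj h hyN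
  have Ot : h.O t := ⟨1, one_mem _, by group⟩
  have no1 : ¬ h.O 1 := by
    rintro ⟨n, hn, e⟩
    rw [mul_inv_eq_one] at e
    exact h.t1 (mul_left_cancel (a := n) (by rw [e, mul_one]))
  have abT := T.mul_mem aT' bT'
  have aV := h.aV
  have bV := h.bV
  have tV := h.tV
  have abV := mul_mem aV bV
  have both : (h.O a ∧ h.O b ∧ h.O (a * b)) ∧ (h.O (a * t) ∧ h.O (b * t) ∧ h.O (a * b * t)) := by
    rcases h.Cl_cases with ⟨c1, c2, c3⟩ | ⟨c1, c2, c3⟩
    · have o1 := h.O_of_Cl aV c1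
      have o2 := h.O_of_Cl bV c2
      have o3 := h.O_of_Cl abV c3
      refine ⟨⟨o1, o2, o3⟩, ?_⟩
      have hat : h.O (a * t) := by
        by_contra hno
        have hnab : ¬ h.O (a * b * t) := fun o => hno (rot' _ _ y3 o)
        have hnb : ¬ h.O (b * t) := fun o => hnab (rot' _ _ y2 o)
        apply h.not_four a b (a * b) aV bV abV o1 o2 o3 (nT' a aT') (nT' b bT') (nT' _ abT) h.ab h.ne_ab_a.symm h.ne_ab_b.symm
        intro x hx
        rcases h.V_cases (h.O_mem hx) with (e | e | e | e) | (e | e | e | e)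
        · exact absurd (e ▸ hx) no1
        · tauto
        · tauto
        · tauto
        · tauto
        · exact absurd (e ▸ hx) hno
        · exact absurd (e ▸ hx) hnb
        · exact absurd (e ▸ hx) hnab
      have hbt := rot' _ _ y1 hat
      exact ⟨hat, hbt, rot' _ _ y2 hbt⟩
    · have o1 := h.O_of_Cl (mul_mem aV tV) c1
      have o2 := h.O_of_Cl (mul_mem bV tV) c2
      have o3 := h.O_of_Cl (mul_mem abV tV) c3
      refine ⟨?_, ⟨o1, o2, o3⟩⟩
      have ha : h.O a := by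
        by_contra hno
        have hnab : ¬ h.O (a * b) := fun o => hno (rot _ _ y3 o)
        have hnb : ¬ h.O b := fun o => hnab (rot _ _ y2 o)
        apply h.not_four (a * t) (b * t) (a * b * t) (mul_mem aV tV) (mul_mem bV tV) (mul_mem abV tV) o1 o2 o3
          (nT2 a h.a1) (nT2 b h.b1) (nT2 _ h.ne_ab) (fun e => h.ab (mul_right_cancel e))
          (fun e => h.ne_ab_a.symm (mul_right_cancel e)) (fun e => h.ne_ab_b.symm (mul_right_cancel e))
        intro x hx
        rcases h.V_cases (h.O_mem hx) with (e | e | e | e) | (e | e | e | e)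
        · exact absurd (e ▸ hx) no1
        · exact absurd (e ▸ hx) hno
        · exact absurd (e ▸ hx) hnb
        · exact absurd (e ▸ hx) hnab
        · tauto
        · tauto
        · tauto
        · tauto
      have hb := rot _ _ y1 ha
      exact ⟨ha, hb, rot _ _ y2 hb⟩
  obtain ⟨⟨o1, o2, o3⟩, o4, o5, o6⟩ := both
  rcases h.V_cases hx with (e | e | e | e) | (e | e | e | e) <;> rw [e]
  · exact absurd e hx1
  · exact o1
  · exact o2
  · exact o3
  · exact Ot
  · exact o4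
  · exact o5
  · exact o6

/-- key step for `S ≤ C(V)` -/
theorem no_transvection {s c d : G} (hs : s ∈ (S : Subgroup G)) (hc : c ∈ h.V) (hd : d ∈ h.V) (hc1 : c ≠ 1)
    (hsc : s * c * s⁻¹ = c) (hsd : s * d * s⁻¹ = c * d) : False := by
  obtain ⟨n, hn, hnc⟩ := h.O_all hc hc1
  -- `s` normalizes `n T n⁻¹`
  have h1 : (n⁻¹ * s * n) * t = t * (n⁻¹ * s * n) := by
    have h2 : s * c = c * s := by rw [mul_inv_eq_iff_eq_mul] at hsc; exact hsc
    calc (n⁻¹ * s * n) * t = n⁻¹ * (s * (n * t * n⁻¹)) * n := by group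
      _ = n⁻¹ * ((n * t * n⁻¹) * s) * n := by rw [hnc, h2]
      _ = t * (n⁻¹ * s * n) := by group
  have h2 : n⁻¹ * d * n ∈ h.V := by
    have := (mem_normalizer_iff.1 ((normalizer (h.V : Set G)).inv_mem hn) d).1 hd
    rwa [inv_inv] at this
  have hcc : c * c = 1 := h.V_sq c hc
  have hdd : d * d = 1 := h.V_sq d hd
  have hcd : c * d = d * c := h.V_comm c hc d hd
  have hci : c⁻¹ = c := inv_eq_of_mul_eq_one_left hcc
  have hdi : d⁻¹ = d := inv_eq_of_mul_eq_one_left hdd
  -- an element `w ∈ {d, dc}` with `n⁻¹ w n ∈ T` and `s w s⁻¹ = c w`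
  obtain ⟨w, hwT, hw⟩ : ∃ w : G, n⁻¹ * w * n ∈ T ∧ s * w * s⁻¹ = c * w := by
    rcases h2.2 with h3 | h3
    · exact ⟨d, h3, hsd⟩
    · refine ⟨d * c, ?_, ?_⟩
      · have : n⁻¹ * (d * c) * n = n⁻¹ * d * n * t := by rw [← hnc]; group
        rw [this]; exact h3
      · calc s * (d * c) * s⁻¹ = (s * d * s⁻¹) * (s * c * s⁻¹) := by group
          _ = c * (d * c) := by rw [hsd, hsc, mul_assoc]
  have h4 := h.nT _ h1 _ hwT
  have h5 : n⁻¹ * s * n * (n⁻¹ * w * n) * (n⁻¹ * s * n)⁻¹ * (n⁻¹ * w * n)⁻¹ = t := by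
    calc n⁻¹ * s * n * (n⁻¹ * w * n) * (n⁻¹ * s * n)⁻¹ * (n⁻¹ * w * n)⁻¹ = n⁻¹ * (s * w * s⁻¹) * w⁻¹ * n := by group
      _ = n⁻¹ * c * n := by rw [hw]; group
      _ = t := by rw [← hnc]; group
  apply h.notin
  rw [← h5]
  exact T.mul_mem h4 (T.inv_mem hwT)

/-- `S` centralizes `V` -/
theorem S_ab {s : G} (hs : s ∈ (S : Subgroup G)) : s * a = a * s ∧ s * b = b * s := by
  have hst := h.cS s hs
  have key : ∀ x ∈ (S : Subgroup G), x ∈ T → x ≠ 1 → s * x * s⁻¹ = a ∨ s * x * s⁻¹ = b ∨ s * x * s⁻¹ = a * b := by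
    intro x hx hxT hx1
    have h1 : s * x * s⁻¹ ∈ (S : Subgroup G) := mul_mem (mul_mem hs hx) (inv_mem hs)
    rcases h.all _ h1 (h.nT s hst x hxT) with e | e | e | e
    · exfalso
      rw [mul_inv_eq_one] at e
      exact hx1 (mul_left_cancel (a := s) (by rw [e, mul_one]))
    · exact Or.inl e
    · exact Or.inr (Or.inl e)
    · exact Or.inr (Or.inr e)
  have ka := key a h.aS h.aT h.a1
  have kb := key b h.bS h.bT h.b1
  have inj : ∀ x y : G, s * x * s⁻¹ = s * y * s⁻¹ → x = y := fun x y e => mul_left_cancel (mul_right_cancel e)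
  have hmul : ∀ x y : G, s * (x * y) * s⁻¹ = (s * x * s⁻¹) * (s * y * s⁻¹) := fun x y => by group
  have aV := h.aV
  have bV := h.bV
  have abV := mul_mem aV bV
  have hbab : b * (a * b) = a := by rw [h.cab, ← mul_assoc, h.bb, one_mul]
  have haba : a * b * a = b := by rw [h.cab, mul_assoc, h.aa, mul_one]
  have haab : a * (a * b) = b := by rw [← mul_assoc, h.aa, one_mul]
  have habb : a * b * b = a := by rw [mul_assoc, h.bb, mul_one]
  -- elements of 2-power order whose cube commutes with `a`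
  have cube : s * s * s * a = a * (s * s * s) → s * a = a * s := by
    intro hcube
    have h1 : s ∈ zpowers (s * s * s) := by
      obtain ⟨k, hk⟩ := IsPGroup.iff_orderOf.1 S.2 ⟨s, hs⟩
      rw [Subgroup.orderOf_mk] at hk
      have h3 : (orderOf s).Coprime 3 := by rw [hk]; exact Nat.Coprime.pow_left _ (by norm_num)
      have h4 : zpowers (s ^ 3) = zpowers s := by
        rw [← Nat.card_zpowers] at h3
        apply eq_of_le_of_card_ge
        · rw [zpowers_le]; exact pow_mem (mem_zpowers s) 3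
        · rw [Nat.card_zpowers, Nat.card_zpowers, orderOf_pow, Nat.Coprime.gcd_eq_one (by rwa [Nat.card_zpowers] at h3), Nat.div_one]
      have h5 : s * s * s = s ^ 3 := by rw [pow_succ, sq]
      rw [h5, h4]; exact mem_zpowers s
    obtain ⟨k, hk⟩ := mem_zpowers_iff.1 h1
    have h2 : Commute (s * s * s) a := hcube
    have h3 := h2.zpow_left k
    rw [hk] at h3
    exact h3.eq
  have tocomm : ∀ x : G, s * x * s⁻¹ = x → s * x = x * s := by
    intro x hx
    rw [mul_inv_eq_iff_eq_mul] at hx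
    exact hx
  rcases ka with ka | ka | ka <;> rcases kb with kb | kb | kb
  · exact absurd (inj _ _ (ka.trans kb.symm)) h.ab
  · exact ⟨tocomm _ ka, tocomm _ kb⟩
  · exact (h.no_transvection hs aV bV h.a1 ka kb).elim
  · -- a ↦ b, b ↦ a
    exfalso
    apply h.no_transvection hs abV aV h.ne_ab (s := s)
    · rw [hmul, ka, kb, h.cab]
    · rw [ka, haba]
  · exact absurd (inj _ _ (ka.trans kb.symm)) h.ab
  · -- a ↦ b, b ↦ ab: three-cycle
    exfalso
    have h3 : s * s * s * a = a * (s * s * s) := by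
      have e3 : s * (a * b) * s⁻¹ = a := by rw [hmul, ka, kb, hbab]
      have : s * s * s * a * (s * s * s)⁻¹ = a := by
        calc s * s * s * a * (s * s * s)⁻¹ = s * (s * (s * a * s⁻¹) * s⁻¹) * s⁻¹ := by group
          _ = a := by rw [ka, kb, e3]
      rw [mul_inv_eq_iff_eq_mul] at this
      exact this
    have h4 := cube h3
    apply h.ab
    rw [← ka, h4]; group
  · -- a ↦ ab, b ↦ a
    exfalso
    have h3 : s * s * s * a = a * (s * s * s) := by
      have e3 : s * (a * b) * s⁻¹ = b := by rw [hmul, ka, kb, haba]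
      have : s * s * s * a * (s * s * s)⁻¹ = a := by
        calc s * s * s * a * (s * s * s)⁻¹ = s * (s * (s * a * s⁻¹) * s⁻¹) * s⁻¹ := by group
          _ = a := by rw [ka, e3, kb]
      rw [mul_inv_eq_iff_eq_mul] at this
      exact this
    have h4 := cube h3
    apply h.ne_ab_a
    rw [← ka, h4]; group
  · exfalso
    apply h.no_transvection hs bV aV h.b1 (s := s) kb
    rw [ka, h.cab]
  · exact absurd (inj _ _ (ka.trans kb.symm)) h.ab

theorem S_comm_V {s : G} (hs : s ∈ (S : Subgroup G)) : ∀ x ∈ h.V, s * x = x * s :=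
  h.comm_V (h.cS s hs) (h.S_ab hs).1 (h.S_ab hs).2

/-- any 2-subgroup containing `t, a, b` centralizes `V` -/
theorem two_comm {R : Subgroup G} (hR : IsPGroup 2 R) (htR : t ∈ R) (haR : a ∈ R) (hbR : b ∈ R) :
    ∀ r ∈ R, ∀ x ∈ h.V, r * x = x * r := by
  obtain ⟨m, hm⟩ := SylowTools.conj_into_sylow S hR
  have hVR : ∀ x ∈ h.V, x ∈ R := by
    intro x hx
    rcases h.V_cases hx with (e | e | e | e) | (e | e | e | e) <;> rw [e]
    · exact one_mem _
    · exact haR
    · exact hbR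
    · exact R.mul_mem haR hbR
    · exact htR
    · exact R.mul_mem haR htR
    · exact R.mul_mem hbR htR
    · exact R.mul_mem (R.mul_mem haR hbR) htR
  have hmN : m ∈ normalizer (h.V : Set G) := h.weakly_closed (fun x hx => hm x (hVR x hx))
  intro r hr x hx
  have h1 : m * x * m⁻¹ ∈ h.V := (mem_normalizer_iff.1 hmN x).1 hx
  have h2 := h.S_comm_V (hm r hr) _ h1
  have h3 : m * (r * x) * m⁻¹ = m * (x * r) * m⁻¹ := by
    calc m * (r * x) * m⁻¹ = m * r * m⁻¹ * (m * x * m⁻¹) := by group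
      _ = m * x * m⁻¹ * (m * r * m⁻¹) := h2
      _ = _ := by group
  exact mul_left_cancel (mul_right_cancel h3)

/-- every element of `C(t)` acts on `T` like an element of `T` -/
theorem exists_split {c : G} (hc : c * t = t * c) : ∃ τ ∈ T, ∀ x ∈ T, (τ⁻¹ * c) * x = x * (τ⁻¹ * c) := by
  classical
  obtain ⟨e⟩ := h.e5
  set C := centralizer ({t} : Set G) with hC
  have hCT : ∀ g : C, ∀ x ∈ T, (g : G) * x * (g : G)⁻¹ ∈ T := fun g x hx => h.nT g (mem_centralizer_singleton_iff.1 g.2) x hx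
  have hTC : T ≤ C := fun x hx => mem_centralizer_singleton_iff.2 (h.comm x hx)
  have hTn : (T.subgroupOf C).Normal := by
    refine ⟨fun n hn g => ?_⟩
    rw [mem_subgroupOf] at hn ⊢
    exact hCT g n hn
  let e1 : T.subgroupOf C ≃* alternatingGroup (Fin 5) := (subgroupOfEquivOfLe hTC).trans e
  let Φ : C →* MulAut (alternatingGroup (Fin 5)) := (MulAut.congr e1).toMonoidHom.comp MulAut.conjNormal
  let e4 : Equiv.Perm (Fin 5) ≃* MulAut (alternatingGroup (Fin 5)) :=
    MulEquiv.ofBijective _ (AutAlt.bijective_conjNormal (α := Fin 5) (by simp) (by simp))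
  let Ψ : C →* Equiv.Perm (Fin 5) := e4.symm.toMonoidHom.comp Φ
  -- the defining property
  have hΨ : ∀ (g : C) (x : G) (hx : x ∈ T), (e ⟨(g : G) * x * (g : G)⁻¹, hCT g x hx⟩ : Equiv.Perm (Fin 5)) =
      Ψ g * (e ⟨x, hx⟩ : Equiv.Perm (Fin 5)) * (Ψ g)⁻¹ := by
    intro g x hx
    have h1 : e4 (Ψ g) = Φ g := e4.apply_symm_apply _
    have h2 : (e4 (Ψ g)) (e ⟨x, hx⟩) = (Φ g) (e ⟨x, hx⟩) := by rw [h1]
    have h3 : ((e4 (Ψ g)) (e ⟨x, hx⟩) : Equiv.Perm (Fin 5)) = Ψ g * (e ⟨x, hx⟩ : Equiv.Perm (Fin 5)) * (Ψ g)⁻¹ :=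
      MulAut.conjNormal_apply _ _
    rw [← h3, h2]
    have h4 : (Φ g) (e ⟨x, hx⟩) = e1 ((MulAut.conjNormal g) (e1.symm (e ⟨x, hx⟩))) := rfl
    have h5 : e1.symm (e ⟨x, hx⟩) = ⟨⟨x, hTC hx⟩, mem_subgroupOf.2 hx⟩ := by
      rw [MulEquiv.symm_apply_eq]; rfl
    rw [h4, h5]
    rfl
  -- the signature is trivial
  let σ : C →* ℤˣ := Equiv.Perm.sign.comp Ψ
  have hSC : (S : Subgroup G) ≤ C := fun x hx => mem_centralizer_singleton_iff.2 (h.cS x hx)
  have hSk : (S : Subgroup G).subgroupOf C ≤ σ.ker := by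
    intro s hs
    rw [mem_subgroupOf] at hs
    rw [MonoidHom.mem_ker]
    have hcomm := h.S_ab hs
    have key : ∀ (x : G) (hx : x ∈ T), (s : G) * x = x * s → Ψ s * (e ⟨x, hx⟩ : Equiv.Perm (Fin 5)) = (e ⟨x, hx⟩ : Equiv.Perm (Fin 5)) * Ψ s := by
      intro x hx hsx
      have h1 := hΨ s x hx
      have h2 : (⟨(s : G) * x * (s : G)⁻¹, hCT s x hx⟩ : T) = ⟨x, hx⟩ := Subtype.ext (by
        show (s : G) * x * (s : G)⁻¹ = x
        rw [hsx]; group)
      rw [h2] at h1
      rw [eq_mul_inv_iff_mul_eq] at h1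
      exact h1.symm
    apply s5_t3 (e ⟨a, h.aT⟩) ⟨?_, ?_⟩ (e ⟨b, h.bT⟩) ⟨?_, ?_, ?_, ?_⟩ (Ψ s) ⟨key a h.aT hcomm.1, key b h.bT hcomm.2⟩
    · rw [← map_mul, show (⟨a, h.aT⟩ : T) * ⟨a, h.aT⟩ = 1 from Subtype.ext h.aa, map_one]
    · intro e2; exact h.a1 (congrArg Subtype.val (e.injective (e2.trans (map_one e).symm)))
    · rw [← map_mul, show (⟨b, h.bT⟩ : T) * ⟨b, h.bT⟩ = 1 from Subtype.ext h.bb, map_one]
    · intro e2; exact h.b1 (congrArg Subtype.val (e.injective (e2.trans (map_one e).symm)))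
    · intro e2; exact h.ab (congrArg Subtype.val (e.injective e2))
    · rw [← map_mul, ← map_mul, show (⟨a, h.aT⟩ : T) * ⟨b, h.bT⟩ = ⟨b, h.bT⟩ * ⟨a, h.aT⟩ from Subtype.ext h.cab]
  have hker : σ.ker = ⊤ := by
    rw [← index_eq_one]
    have h1 : σ.ker.index ∣ 2 := by
      rw [index_ker]
      have := card_subgroup_dvd_card σ.range
      rwa [Nat.card_eq_fintype_card (α := ℤˣ), Fintype.card_units_int] at this
    have h2 := index_dvd_of_le hSk
    have h3 : ((S : Subgroup G).subgroupOf C).index ∣ (S : Subgroup G).index := relIndex_dvd_index_of_le hSC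
    rcases (Nat.dvd_prime Nat.prime_two).1 h1 with h4 | h4
    · exact h4
    · exact absurd ((h4 ▸ h2).trans h3) S.not_dvd_index
  have hcC : c ∈ C := mem_centralizer_singleton_iff.2 hc
  have hmem : Ψ ⟨c, hcC⟩ ∈ alternatingGroup (Fin 5) := by
    rw [Equiv.Perm.mem_alternatingGroup]
    have : (⟨c, hcC⟩ : C) ∈ σ.ker := by rw [hker]; trivial
    exact this
  set τ : T := e.symm ⟨_, hmem⟩ with hτ
  refine ⟨τ, τ.2, ?_⟩
  intro x hx
  have h1 := hΨ ⟨c, hcC⟩ x hx
  have h2 : (⟨c * x * c⁻¹, hCT ⟨c, hcC⟩ x hx⟩ : T) = τ * ⟨x, hx⟩ * τ⁻¹ := by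
    apply e.injective
    apply Subtype.ext
    rw [h1]
    rw [map_mul, map_mul, map_inv, hτ, e.apply_symm_apply]
    rfl
  have h3 : c * x * c⁻¹ = (τ : G) * x * (τ : G)⁻¹ := congrArg Subtype.val h2
  have h4 : (τ : G)⁻¹ * (c * x * c⁻¹) * (τ : G) = x := by rw [h3]; group
  calc (τ : G)⁻¹ * c * x = ((τ : G)⁻¹ * (c * x * c⁻¹) * (τ : G)) * ((τ : G)⁻¹ * c) := by group
    _ = x * ((τ : G)⁻¹ * c) := by rw [h4]

end WL

end Cfsg.Agent.Lib.H10Wk
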