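import Cfsg.Agent.Lib.H10Wk2

set_option autoImplicit false
set_option linter.unusedSectionVars false

/-!
# Weak closure `2 × A₅`: normal subgroups, subgroups controlling the fusion of `t`
-/

namespace Cfsg.Agent.Lib.H10Wk

open Cfsg Subgroup Cfsg.Agent.Lib
open Cfsg.Agent.Lib.H10TCI (TF tf5)

/-- nonidentity elements of `V` -/
def XV {G : Type*} [Group G] (V : Subgroup G) : Type _ := {x : G // x ∈ V ∧ x ≠ 1}

noncomputable instance {G : Type*} [Group G] (V : Subgroup G) : MulAction (normalizer (V : Set G)) (XV V) where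
  smul n s := ⟨n.1 * s.1 * n.1⁻¹, (mem_normalizer_iff.1 n.2 _).1 s.2.1, fun h => s.2.2 (by
    rw [mul_inv_eq_one] at h
    exact mul_left_cancel (a := n.1) (by rw [h, mul_one]))⟩
  one_smul s := Subtype.ext (by show (1 : G) * s.1 * (1 : G)⁻¹ = s.1; group)
  mul_smul a b s := Subtype.ext (by
    show (a.1 * b.1) * s.1 * (a.1 * b.1)⁻¹ = a.1 * (b.1 * s.1 * b.1⁻¹) * a.1⁻¹; group)

theorem card_XV {G : Type*} [Group G] {V : Subgroup G} [Finite V] : Nat.card (XV V) + 1 = Nat.card V := by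
  classical
  have := Fintype.ofFinite V
  have e : XV V ≃ {s : V // s ≠ 1} :=
    { toFun := fun s => ⟨⟨s.1, s.2.1⟩, fun h => s.2.2 (congrArg Subtype.val h)⟩
      invFun := fun s => ⟨s.1.1, s.1.2, fun h => s.2 (Subtype.ext h)⟩
      left_inv := fun s => rfl
      right_inv := fun s => rfl }
  rw [Nat.card_congr e, Nat.card_eq_fintype_card, Nat.card_eq_fintype_card, Fintype.card_subtype_compl,
    Fintype.card_subtype_eq]
  have : 0 < Fintype.card V := Fintype.card_pos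
  omega

namespace WL

variable {G : Type*} [Group G] [Finite G] {t : G} {T : Subgroup G} {S : Sylow 2 G} {a b : G} (h : WL t T S a b)
include h

theorem card_ST : Nat.card ((S : Subgroup G) ⊓ T : Subgroup G) = 4 := by
  classical
  have h1 : (((S : Subgroup G) ⊓ T : Subgroup G) : Set G) = ({1, a, b, a * b} : Finset G) := by
    ext x
    simp only [Finset.coe_insert, Finset.coe_singleton, Set.mem_insert_iff, Set.mem_singleton_iff, SetLike.mem_coe]
    constructor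
    · intro hx
      exact h.all x (mem_inf.1 hx).1 (mem_inf.1 hx).2
    · rintro (e | e | e | e) <;> rw [e]
      · exact one_mem _
      · exact mem_inf.2 ⟨h.aS, h.aT⟩
      · exact mem_inf.2 ⟨h.bS, h.bT⟩
      · exact mem_inf.2 ⟨mul_mem h.aS h.bS, T.mul_mem h.aT h.bT⟩
  have h2 : Nat.card ((S : Subgroup G) ⊓ T : Subgroup G) = (((S : Subgroup G) ⊓ T : Subgroup G) : Set G).ncard := rfl
  rw [h2, h1, Set.ncard_coe_finset, Finset.card_insert_of_notMem (by simp [h.a1.symm, h.b1.symm, h.ne_ab.symm]),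
    Finset.card_insert_of_notMem (by simp [h.ab, h.ne_ab_a.symm, h.b1]),
    Finset.card_insert_of_notMem (by simp [h.ne_ab_b.symm, h.a1]), Finset.card_singleton]

theorem ST_le : (S : Subgroup G) ⊓ T ≤ h.V := fun _ hx => ⟨(mem_inf.1 hx).1, Or.inl (mem_inf.1 hx).2⟩

theorem card_V : Nat.card h.V = 8 := by
  have h1 : (((S : Subgroup G) ⊓ T).subgroupOf h.V).index = 2 := by
    rw [index_eq_two_iff]
    refine ⟨⟨t, h.tV⟩, fun x => ?_⟩
    have hx := x.2.2
    have hxS := x.2.1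
    rw [mem_subgroupOf, mem_subgroupOf]
    have e : ((x * ⟨t, h.tV⟩ : h.V) : G) = (x : G) * t := rfl
    rw [e, mem_inf, mem_inf]
    by_cases hxT : (x : G) ∈ T
    · right
      refine ⟨⟨hxS, hxT⟩, fun h2 => h.notin ?_⟩
      have : t = (x : G)⁻¹ * ((x : G) * t) := by group
      rw [this]
      exact T.mul_mem (T.inv_mem hxT) h2.2
    · left
      exact ⟨⟨mul_mem hxS h.tS, hx.resolve_left hxT⟩, fun h2 => hxT h2.2⟩
  have h2 := (((S : Subgroup G) ⊓ T).subgroupOf h.V).index_mul_card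
  rw [h1, SmallSimple.card_subgroupOf, inf_eq_left.2 h.ST_le, h.card_ST] at h2
  omega

/-- normal subgroups of `N(V)` acting nontrivially on `V` are transitive -/
theorem normal_trans (R : Subgroup G) (hRN : R ≤ normalizer (h.V : Set G))
    (hR : ∀ n ∈ normalizer (h.V : Set G), ∀ r ∈ R, n * r * n⁻¹ ∈ R) (hmove : ∃ r ∈ R, ∃ x ∈ h.V, r * x ≠ x * r)
    {x y : G} (hx : x ∈ h.V) (hx1 : x ≠ 1) (hy : y ∈ h.V) (hy1 : y ≠ 1) : ∃ r ∈ R, r * x * r⁻¹ = y := by
  have hp : MulAction.IsPretransitive (normalizer (h.V : Set G)) (XV h.V) := by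
    constructor
    rintro ⟨x, hx, hx1⟩ ⟨y, hy, hy1⟩
    obtain ⟨n, hn, hn2⟩ := h.O_all hx hx1
    obtain ⟨n', hn', hn2'⟩ := h.O_all hy hy1
    refine ⟨⟨n' * n⁻¹, mul_mem hn' (inv_mem hn)⟩, Subtype.ext ?_⟩
    show n' * n⁻¹ * x * (n' * n⁻¹)⁻¹ = y
    rw [← hn2, ← hn2']
    group
  have hc : Nat.card (XV h.V) = 7 := by
    have := card_XV (V := h.V)
    rw [h.card_V] at this
    omega
  have hpr : MulAction.IsPreprimitive (normalizer (h.V : Set G)) (XV h.V) :=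
    MulAction.IsPreprimitive.of_prime_card (by rw [hc]; norm_num)
  have hnorm : (R.subgroupOf (normalizer (h.V : Set G))).Normal := by
    constructor
    intro r hr n
    rw [mem_subgroupOf] at hr ⊢
    exact hR n n.2 r hr
  have h1 : MulAction.IsPretransitive (R.subgroupOf (normalizer (h.V : Set G))) (XV h.V) := by
    apply MulAction.IsQuasiPreprimitive.isPretransitive_of_normal
    intro hfix
    obtain ⟨r, hr, z, hz, hrz⟩ := hmove
    apply hrz
    by_cases hz1 : z = 1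
    · rw [hz1, one_mul, mul_one]
    · have h2 : (⟨z, hz, hz1⟩ : XV h.V) ∈ MulAction.fixedPoints
          (R.subgroupOf (normalizer (h.V : Set G))) (XV h.V) := by rw [hfix]; trivial
      have h3 := congrArg Subtype.val (h2 ⟨⟨r, hRN hr⟩, mem_subgroupOf.2 hr⟩)
      change r * z * r⁻¹ = z at h3
      rw [mul_inv_eq_iff_eq_mul] at h3
      exact h3
  obtain ⟨⟨n, hn⟩, hn2⟩ := h1.exists_smul_eq (⟨x, hx, hx1⟩ : XV h.V) ⟨y, hy, hy1⟩
  exact ⟨n.1, mem_subgroupOf.1 hn, congrArg Subtype.val hn2⟩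

theorem V_le_of {Y : Subgroup G} (hTY : T ≤ Y) (htY : t ∈ Y) : h.V ≤ Y := by
  intro x hx
  have ha := hTY h.aT
  have hb := hTY h.bT
  rcases h.V_cases hx with (e | e | e | e) | (e | e | e | e) <;> rw [e]
  · exact one_mem _
  · exact ha
  · exact hb
  · exact Y.mul_mem ha hb
  · exact htY
  · exact Y.mul_mem ha htY
  · exact Y.mul_mem hb htY
  · exact Y.mul_mem (Y.mul_mem ha hb) htY

/-- a normal subgroup containing `T` and `t` fuses `V` -/
theorem fuse_of_normal {Y : Subgroup G} (hY : Y.Normal) (hTY : T ≤ Y) {x : G} (hx : x ∈ h.V) (hx1 : x ≠ 1) :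
    ∃ y ∈ Y, y * t * y⁻¹ = x := by
  obtain ⟨y, hyT, y1, y2, y3, y4, y5⟩ := h.exists_rot
  have hyN : y ∈ normalizer (h.V : Set G) := by
    apply h.weakly_closed
    intro z hz
    have hyi : y * t * y⁻¹ = t := by rw [y5]; group
    have e1 : ∀ u v : G, y * (u * v) * y⁻¹ = (y * u * y⁻¹) * (y * v * y⁻¹) := fun u v => by group
    rcases h.V_cases hz with (e | e | e | e) | (e | e | e | e) <;> rw [e]
    · simp
    · rw [y1]; exact h.bS
    · rw [y2]; exact mul_mem h.aS h.bS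
    · rw [y3]; exact h.aS
    · rw [hyi]; exact h.tS
    · rw [e1, y1, hyi]; exact mul_mem h.bS h.tS
    · rw [e1, y2, hyi]; exact mul_mem (mul_mem h.aS h.bS) h.tS
    · rw [e1, y3, hyi]; exact mul_mem h.aS h.tS
  obtain ⟨r, hr, hr2⟩ := h.normal_trans (Y ⊓ normalizer (h.V : Set G)) inf_le_right
    (fun n hn r hr => mem_inf.2 ⟨hY.conj_mem r (mem_inf.1 hr).1 n, mul_mem (mul_mem hn (mem_inf.1 hr).2) (inv_mem hn)⟩)
    ⟨y, mem_inf.2 ⟨hTY hyT, hyN⟩, a, h.aV, fun e => h.ab (by rw [← y1, e]; group)⟩ h.tV h.t1 hx hx1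
  exact ⟨r, (mem_inf.1 hr).1, hr2⟩

/-- all elements of `V` are fused in `N(V)` -/
theorem fuse_N {Y : Subgroup G} (hY : normalizer (h.V : Set G) ≤ Y) {x : G} (hx : x ∈ h.V) (hx1 : x ≠ 1) :
    ∃ y ∈ Y, y * t * y⁻¹ = x := by
  obtain ⟨n, hn, hn2⟩ := h.O_all hx hx1
  exact ⟨n, hY hn, hn2⟩

/-- `Y` controls the fusion of `t` -/
theorem full_conj {Y : Subgroup G} (hTY : T ≤ Y) (htY : t ∈ Y) (hY : ∀ x ∈ h.V, x ≠ 1 → ∃ y ∈ Y, y * t * y⁻¹ = x)
    {x : G} (hx : x ∈ Y) (hcl : h.Cl x) : ∃ y ∈ Y, y * t * y⁻¹ = x := by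
  have hVY := h.V_le_of hTY htY
  obtain ⟨P0, hVP, hPY, hP2, hPidx⟩ := SylowTools.exists_sylow_of_subgroup hVY h.V_two
  obtain ⟨g, rfl⟩ := hcl
  have hxo : orderOf (g * t * g⁻¹) = 2 := by rw [SylowTools.orderOf_conj']; exact h.ord
  obtain ⟨k, hk, hk2⟩ := SylowTools.conj_elem_into_of_subgroup hPY hP2 hPidx hx ⟨1, by rw [hxo, pow_one]⟩
  have hc := h.two_comm hP2 (hVP h.tV) (hVP h.aV) (hVP h.bV) _ hk2 t h.tV
  have e1 : k * (g * t * g⁻¹) * k⁻¹ = (k * g) * t * (k * g)⁻¹ := by group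
  rw [e1] at hc hk2
  obtain ⟨z, hz, hz2⟩ : ∃ z ∈ Y, z * t * z⁻¹ = (k * g) * t * (k * g)⁻¹ := by
    by_cases hne : (k * g) * t * (k * g)⁻¹ = t
    · exact ⟨1, one_mem _, by rw [hne]; group⟩
    · obtain ⟨w, hw, hw2⟩ := h.conj_into hc hne
      have hwV : w * ((k * g) * t * (k * g)⁻¹) * w⁻¹ ∈ h.V ∧ w * ((k * g) * t * (k * g)⁻¹) * w⁻¹ ≠ 1 := by
        rcases hw2 with e | e <;> rw [e]
        · exact ⟨h.aV, h.a1⟩
        · exact ⟨mul_mem h.aV h.tV, fun e => h.notin (by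
            have : t = a⁻¹ := (inv_eq_of_mul_eq_one_right e).symm
            rw [this]; exact T.inv_mem h.aT)⟩
      obtain ⟨z, hz, hz2⟩ := hY _ hwV.1 hwV.2
      refine ⟨w⁻¹ * z, Y.mul_mem (Y.inv_mem (hTY hw)) hz, ?_⟩
      calc w⁻¹ * z * t * (w⁻¹ * z)⁻¹ = w⁻¹ * (z * t * z⁻¹) * w := by group
        _ = (k * g) * t * (k * g)⁻¹ := by rw [hz2]; group
  refine ⟨k⁻¹ * z, Y.mul_mem (Y.inv_mem hk) hz, ?_⟩
  calc k⁻¹ * z * t * (k⁻¹ * z)⁻¹ = k⁻¹ * (z * t * z⁻¹) * k := by group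
    _ = g * t * g⁻¹ := by rw [hz2]; group

/-- restriction to a subgroup -/
theorem restrict {Y : Subgroup G} (hTY : T ≤ Y) (htY : t ∈ Y) (haY : ∃ y ∈ Y, y * t * y⁻¹ = a) :
    ∃ S' : Sylow 2 Y, WL (⟨t, htY⟩ : Y) (T.subgroupOf Y) S' ⟨a, hTY h.aT⟩ ⟨b, hTY h.bT⟩ := by
  have hVY := h.V_le_of hTY htY
  have hV2 : IsPGroup 2 (h.V.subgroupOf Y) := h.V_two.comap_subtype
  obtain ⟨S', hS'⟩ := hV2.exists_le_sylow
  have hin : ∀ x (hx : x ∈ h.V), (⟨x, hVY hx⟩ : Y) ∈ (S' : Subgroup Y) := fun x hx => hS' (mem_subgroupOf.2 hx)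
  have hR2 : IsPGroup 2 ((S' : Subgroup Y).map Y.subtype) := S'.2.map _
  have hcomm : ∀ s : Y, s ∈ (S' : Subgroup Y) → ∀ x ∈ h.V, (s : G) * x = x * s := by
    intro s hs
    exact h.two_comm hR2 ⟨_, hin t h.tV, rfl⟩ ⟨_, hin a h.aV, rfl⟩ ⟨_, hin b h.bV, rfl⟩ s ⟨s, hs, rfl⟩
  obtain ⟨e⟩ := h.e5
  refine ⟨S', ?_⟩
  exact {
    ord := by rw [Subgroup.orderOf_mk]; exact h.ord
    tS := hin t h.tV
    cS := fun s hs => Subtype.ext (hcomm s hs t h.tV)
    e5 := ⟨(subgroupOfEquivOfLe hTY).trans e⟩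
    comm := fun x hx => Subtype.ext (h.comm x (mem_subgroupOf.1 hx))
    nT := fun c hc x hx => mem_subgroupOf.2 (h.nT c (congrArg Subtype.val hc) x (mem_subgroupOf.1 hx))
    wc := fun g hg => h.wc g (congrArg Subtype.val hg)
    ex := by
      obtain ⟨y, hy, hy2⟩ := haY
      refine ⟨⟨y, hy⟩, Subtype.ext ?_, fun e => ?_⟩
      · show y * t * y⁻¹ * t = t * (y * t * y⁻¹)
        rw [hy2]; exact h.at'
      · have : y * t * y⁻¹ = t := congrArg Subtype.val e
        rw [hy2] at this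
        exact h.notin (this ▸ h.aT)
    aT := mem_subgroupOf.2 h.aT
    bT := mem_subgroupOf.2 h.bT
    aS := hin a h.aV
    bS := hin b h.bV
    aa := Subtype.ext h.aa
    bb := Subtype.ext h.bb
    a1 := fun e => h.a1 (congrArg Subtype.val e)
    b1 := fun e => h.b1 (congrArg Subtype.val e)
    ab := fun e => h.ab (congrArg Subtype.val e)
    cab := Subtype.ext h.cab
    all := by
      intro p hp hpT
      have hpT' : (p : G) ∈ T := mem_subgroupOf.1 hpT
      have h9 := h.tf.t3 ⟨a, h.aT⟩ ⟨Subtype.ext h.aa, fun e => h.a1 (congrArg Subtype.val e)⟩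
        ⟨b, h.bT⟩ ⟨Subtype.ext h.bb, fun e => h.b1 (congrArg Subtype.val e),
        fun e => h.ab (congrArg Subtype.val e), Subtype.ext h.cab⟩ ⟨p, hpT'⟩
        ⟨Subtype.ext (hcomm p hp a h.aV), Subtype.ext (hcomm p hp b h.bV)⟩
      rcases h9 with h9 | h9 | h9 | h9
      · have h10 : (p : G) = 1 := congrArg Subtype.val h9
        exact Or.inl (Subtype.ext h10)
      · have h10 : (p : G) = a := congrArg Subtype.val h9
        exact Or.inr (Or.inl (Subtype.ext h10))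
      · have h10 : (p : G) = b := congrArg Subtype.val h9
        exact Or.inr (Or.inr (Or.inl (Subtype.ext h10)))
      · have h10 : (p : G) = a * b := congrArg Subtype.val h9
        exact Or.inr (Or.inr (Or.inr (Subtype.ext h10))) }

end WL

end Cfsg.Agent.Lib.H10Wk
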