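import Cfsg.Agent.Lib.H10Wk3
import Cfsg.Agent.Lib.TransferApps
import Cfsg.Agent.Lib.JOneSimple

set_option autoImplicit false
set_option linter.unusedSectionVars false

/-!
# Weak closure `2 × A₅`: normal closures, quotients by central subgroups
-/

namespace Cfsg.Agent.Lib.H10Wk

open Cfsg Subgroup Cfsg.Agent.Lib
open Cfsg.Agent.Lib.H10TCI (TF tf5)

/-- the subgroup generated by the `Y`-conjugates of `t` -/
def ncl {G : Type*} [Group G] (Y : Subgroup G) (t : G) : Subgroup G := closure {x | ∃ y ∈ Y, y * t * y⁻¹ = x}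

theorem ncl_le {G : Type*} [Group G] {Y : Subgroup G} {t : G} (ht : t ∈ Y) : ncl Y t ≤ Y := by
  rw [ncl, closure_le]
  rintro _ ⟨y, hy, rfl⟩
  exact Y.mul_mem (Y.mul_mem hy ht) (Y.inv_mem hy)

theorem mem_ncl {G : Type*} [Group G] {Y : Subgroup G} {t : G} : t ∈ ncl Y t :=
  subset_closure ⟨1, one_mem _, by group⟩

theorem ncl_conj {G : Type*} [Group G] {Y : Subgroup G} {t : G} {x y : G} (hy : y ∈ Y) (hx : x ∈ ncl Y t) :
    y * x * y⁻¹ ∈ ncl Y t := by
  have h1 : (ncl Y t).map (MulAut.conj y).toMonoidHom ≤ ncl Y t := by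
    rw [ncl, MonoidHom.map_closure, closure_le]
    rintro _ ⟨_, ⟨z, hz, rfl⟩, rfl⟩
    refine subset_closure ⟨y * z, Y.mul_mem hy hz, ?_⟩
    simp only [MulEquiv.toMonoidHom_eq_coe, MonoidHom.coe_coe, MulAut.conj_apply]
    group
  exact h1 ⟨x, hx, by simp only [MulEquiv.toMonoidHom_eq_coe, MonoidHom.coe_coe, MulAut.conj_apply]⟩

theorem ncl_mono {G : Type*} [Group G] {Y Z : Subgroup G} (h : Y ≤ Z) (t : G) : ncl Y t ≤ ncl Z t :=
  closure_mono (fun _ ⟨y, hy, e⟩ => ⟨y, h hy, e⟩)

theorem map_ncl {G : Type*} [Group G] {Y : Subgroup G} {t : G} (ht : t ∈ Y) :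
    (normalClosure ({(⟨t, ht⟩ : Y)} : Set Y)).map Y.subtype = ncl Y t := by
  rw [normalClosure, MonoidHom.map_closure, ncl]
  congr 1
  ext x
  constructor
  · rintro ⟨z, hz, rfl⟩
    rw [Group.mem_conjugatesOfSet_iff] at hz
    obtain ⟨w, rfl, hw⟩ := hz
    obtain ⟨y, hy⟩ := isConj_iff.1 hw
    exact ⟨y, y.2, congrArg Subtype.val hy⟩
  · rintro ⟨y, hy, rfl⟩
    refine ⟨⟨y * t * y⁻¹, Y.mul_mem (Y.mul_mem hy ht) (Y.inv_mem hy)⟩, ?_, rfl⟩
    rw [Group.mem_conjugatesOfSet_iff]
    exact ⟨_, rfl, isConj_iff.2 ⟨⟨y, hy⟩, rfl⟩⟩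

theorem ncl_top {G : Type*} [Group G] (t : G) : ncl ⊤ t = normalClosure ({t} : Set G) := by
  rw [normalClosure, ncl]
  congr 1
  ext x
  constructor
  · rintro ⟨y, -, rfl⟩
    rw [Group.mem_conjugatesOfSet_iff]
    exact ⟨_, rfl, isConj_iff.2 ⟨y, rfl⟩⟩
  · intro hx
    rw [Group.mem_conjugatesOfSet_iff] at hx
    obtain ⟨w, rfl, hw⟩ := hx
    obtain ⟨y, hy⟩ := isConj_iff.1 hw
    exact ⟨y, mem_top _, hy⟩

theorem isoJ1_congr {G H : Type*} [Group G] [Group H] (e : G ≃* H) (h : Cfsg.Spor.IsoJ1 G) : Cfsg.Spor.IsoJ1 H := by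
  obtain ⟨f⟩ := h
  exact ⟨e.symm.trans f⟩

theorem ncl_iso {G : Type*} [Group G] {Y : Subgroup G} {t : G} (ht : t ∈ Y)
    (h : Cfsg.Spor.IsoJ1 (normalClosure ({(⟨t, ht⟩ : Y)} : Set Y))) : Cfsg.Spor.IsoJ1 (ncl Y t) := by
  rw [← map_ncl ht]
  exact isoJ1_congr (equivMapOfInjective _ _ Y.subtype_injective) h

/-- The induction hypothesis for proper subgroups. -/
def IHsub {G : Type*} [Group G] [Finite G] (T : Subgroup G) (t a : G) : Prop :=
  ∀ Y : Subgroup G, Y ≠ ⊤ → T ≤ Y → t ∈ Y → (∃ y ∈ Y, y * t * y⁻¹ = a) → Cfsg.Spor.IsoJ1 (ncl Y t)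

namespace WL

variable {G : Type*} [Group G] {t : G} {T : Subgroup G} {S : Sylow 2 G} {a b : G} (h : WL t T S a b)
include h

theorem T_simple : IsSimpleGroup T := by
  obtain ⟨e⟩ := h.e5
  have : IsSimpleGroup (alternatingGroup (Fin 5)) := alternatingGroup.isSimpleGroup (by rw [Nat.card_eq_fintype_card, Fintype.card_fin])
  exact e.isSimpleGroup

/-- a subgroup normalized by `T` and containing a nontrivial element of `T` contains `T` -/
theorem T_le_of {N : Subgroup G} (hN : ∀ x ∈ T, ∀ n ∈ N, x * n * x⁻¹ ∈ N) (hne : ∃ x ∈ N, x ∈ T ∧ x ≠ 1) : T ≤ N := by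
  have hs := h.T_simple
  have hn : (N.subgroupOf T).Normal := by
    constructor
    intro n hn g
    rw [mem_subgroupOf] at hn ⊢
    exact hN g g.2 n hn
  rcases hn.eq_bot_or_eq_top with e | e
  · exfalso
    obtain ⟨x, hxN, hxT, hx1⟩ := hne
    have h1 : (⟨x, hxT⟩ : T) ∈ N.subgroupOf T := mem_subgroupOf.2 hxN
    rw [e, mem_bot] at h1
    exact hx1 (congrArg Subtype.val h1)
  · exact subgroupOf_eq_top.1 e

theorem T_le_commutator : T ≤ commutator G := by
  apply h.T_le_of
  · intro x _ n hn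
    exact (inferInstance : (commutator G).Normal).conj_mem n hn x
  · by_contra hcon
    push Not at hcon
    apply h.a1
    apply h.center_T h.aT
    intro y hy
    have h1 := hcon (a * y * a⁻¹ * y⁻¹) (by
      rw [commutator_def]
      exact commutator_mem_commutator (mem_top _) (mem_top _))
      (T.mul_mem (T.mul_mem (T.mul_mem h.aT hy) (T.inv_mem h.aT)) (T.inv_mem hy))
    rw [mul_inv_eq_one, mul_inv_eq_iff_eq_mul] at h1
    exact h1

variable [Finite G]

theorem perfect (htop : normalClosure ({t} : Set G) = ⊤) : commutator G = ⊤ := by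
  rw [eq_top_iff, ← htop]
  apply normalClosure_le_normal
  rw [Set.singleton_subset_iff]
  obtain ⟨n, hn, hn2⟩ := h.O_all h.aV h.a1
  have h1 := h.T_le_commutator h.aT
  have h2 := (inferInstance : (commutator G).Normal).conj_mem _ h1 n⁻¹
  have h3 : n⁻¹ * a * n⁻¹⁻¹ = t := by rw [← hn2]; group
  rwa [h3] at h2

theorem T_le_normal {N : Subgroup G} (hN : N.Normal) (htN : t ∈ N) : T ≤ N := by
  apply h.T_le_of
  · intro x _ n hn
    exact hN.conj_mem n hn x
  · obtain ⟨n, hn, hn2⟩ := h.O_all h.aV h.a1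
    exact ⟨a, hn2 ▸ hN.conj_mem t htN n, h.aT, h.a1⟩

/-- Step 1 -/
theorem step1 (IH : IHsub T t a) (hne : normalClosure ({t} : Set G) ≠ ⊤) :
    Cfsg.Spor.IsoJ1 (normalClosure ({t} : Set G)) := by
  set N := normalClosure ({t} : Set G) with hN
  have hNn : N.Normal := normalClosure_normal
  have htN : t ∈ N := subset_normalClosure (Set.mem_singleton _)
  have hTN := h.T_le_normal hNn htN
  have hf : ∀ x ∈ h.V, x ≠ 1 → ∃ y ∈ N, y * t * y⁻¹ = x := fun x hx hx1 => h.fuse_of_normal hNn hTN hx hx1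
  have h1 := IH N hne hTN htN (hf a h.aV h.a1)
  have h2 : ncl N t = N := by
    apply le_antisymm (ncl_le htN)
    conv_lhs => rw [hN, ← ncl_top]
    rw [ncl, closure_le]
    rintro _ ⟨g, -, rfl⟩
    exact subset_closure (h.full_conj hTN htN hf (hNn.conj_mem t htN g) ⟨g, rfl⟩)
  rwa [h2] at h1

theorem not_central : t ∉ center G := by
  intro hc
  obtain ⟨g, -, hg⟩ := h.ex
  apply hg
  rw [mem_center_iff.1 hc g]
  group

/-- the only central element `z` with `t z` conjugate to `t` is trivial -/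
theorem central_twist {z g : G} (hz : z ∈ center G) (hg : g * t * g⁻¹ = t * z) : z = 1 := by
  have hzz : z * z = 1 := by
    have h1 : (t * z) * (t * z) = 1 := by
      rw [← hg]
      calc g * t * g⁻¹ * (g * t * g⁻¹) = g * (t * t) * g⁻¹ := by group
        _ = 1 := by rw [h.tt]; group
    calc z * z = (t * t) * (z * z) := by rw [h.tt, one_mul]
      _ = t * (t * z) * z := by group
      _ = t * (z * t) * z := by rw [mem_center_iff.1 hz t]
      _ = (t * z) * (t * z) := by group
      _ = 1 := h1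
  have hct : t * z * t = z := by
    rw [mul_assoc, ← mem_center_iff.1 hz t, ← mul_assoc, h.tt, one_mul]
  rcases h.wc g (by rw [hg, hct, ← mul_assoc, h.tt, one_mul]) with h1 | h1
  · rw [hg] at h1
    have h2 : t * z = 1 := by
      apply h.center_T h1
      intro y hy
      calc t * z * y = t * (z * y) := by group
        _ = t * (y * z) := by rw [mem_center_iff.1 hz y]
        _ = (t * y) * z := by group
        _ = (y * t) * z := by rw [h.comm y hy]
        _ = y * (t * z) := by group
    exfalso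
    apply h.not_central
    have h3 : t = z⁻¹ := eq_inv_of_mul_eq_one_left h2
    rw [h3]
    exact inv_mem hz
  · rw [hg, hct] at h1
    exact h.center_T h1 (fun y _ => (mem_center_iff.1 hz y).symm)

/-- passage to a quotient by a central subgroup -/
theorem quot {Z : Subgroup G} [Z.Normal] (hZ : Z ≤ center G) :
    ∃ S' : Sylow 2 (G ⧸ Z), WL (QuotientGroup.mk' Z t) (T.map (QuotientGroup.mk' Z)) S' (QuotientGroup.mk' Z a) (QuotientGroup.mk' Z b) := by
  set π := QuotientGroup.mk' Z with hπ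
  have hsurj : Function.Surjective π := QuotientGroup.mk'_surjective Z
  have hker : ∀ x : G, π x = 1 → x ∈ center G := fun x hx => hZ ((QuotientGroup.eq_one_iff x).1 hx)
  have heq : ∀ x y : G, π x = π y → x⁻¹ * y ∈ center G := fun x y hxy => hker _ (by rw [map_mul, map_inv, hxy, inv_mul_cancel])
  have hinj : ∀ x ∈ T, π x = 1 → x = 1 := fun x hx hx1 => h.center_T hx (fun y _ => (mem_center_iff.1 (hker x hx1) y).symm)
  have hcomm : ∀ g : G, π (g * t * g⁻¹) = π t → g * t * g⁻¹ = t := by
    intro g hg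
    have h1 := heq _ _ hg.symm
    have h2 := h.central_twist (z := t⁻¹ * (g * t * g⁻¹)) (g := g) h1 (by group)
    rw [inv_mul_eq_one] at h2
    exact h2.symm
  have hcomm' : ∀ c : G, π c * π t = π t * π c → c * t = t * c := by
    intro c hc
    have h1 : c * t * c⁻¹ = t := hcomm c (by rw [map_mul, map_mul, map_inv, hc]; group)
    rw [mul_inv_eq_iff_eq_mul] at h1
    exact h1
  obtain ⟨e⟩ := h.e5
  refine ⟨S.mapSurjective hsurj, ?_⟩
  have hS : ∀ x ∈ (S : Subgroup G), π x ∈ ((S.mapSurjective hsurj : Sylow 2 (G ⧸ Z)) : Subgroup (G ⧸ Z)) := by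
    intro x hx
    rw [Sylow.coe_mapSurjective]
    exact ⟨x, hx, rfl⟩
  have hinjT : Function.Injective (π.subgroupMap T) := by
    rw [injective_iff_map_eq_one]
    intro x hx
    exact Subtype.ext (hinj x x.2 (congrArg Subtype.val hx))
  have e2 : T ≃* T.map π := MulEquiv.ofBijective (π.subgroupMap T) ⟨hinjT, π.subgroupMap_surjective T⟩
  have hzc : ∀ z ∈ center G, ∀ x : G, z * x = x * z := fun z hz x => (mem_center_iff.1 hz x).symm
  exact {
    ord := by
      have h1 : (π t) ^ 2 = 1 := by rw [← map_pow, sq, h.tt, map_one]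
      have h2 : π t ≠ 1 := fun e => h.not_central (hker t e)
      exact orderOf_eq_prime h1 h2
    tS := hS t h.tS
    cS := by
      intro s hs
      rw [Sylow.coe_mapSurjective] at hs
      obtain ⟨x, hx, rfl⟩ := hs
      show π x * π t = π t * π x
      rw [← map_mul, ← map_mul, h.cS x hx]
    e5 := ⟨e2.symm.trans e⟩
    comm := by
      rintro _ ⟨x, hx, rfl⟩
      show π x * π t = π t * π x
      rw [← map_mul, ← map_mul, h.comm x hx]
    nT := by
      intro c hc x hx
      obtain ⟨c, rfl⟩ := hsurj c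
      obtain ⟨x, hx, rfl⟩ := hx
      exact ⟨c * x * c⁻¹, h.nT c (hcomm' c hc) x hx, by rw [map_mul, map_mul, map_inv]⟩
    wc := by
      intro g hg
      obtain ⟨g, rfl⟩ := hsurj g
      have h1 : g * t * g⁻¹ * t = t * (g * t * g⁻¹) := hcomm' _ (by rw [map_mul, map_mul, map_inv]; exact hg)
      rcases h.wc g h1 with h2 | h2
      · left
        exact ⟨_, h2, by rw [map_mul, map_mul, map_inv]⟩
      · right
        exact ⟨_, h2, by rw [map_mul, map_mul, map_mul, map_inv]⟩
    ex := by
      obtain ⟨g, hg, hne⟩ := h.ex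
      refine ⟨π g, ?_, ?_⟩
      · rw [← map_inv, ← map_mul, ← map_mul, ← map_mul, ← map_mul, hg]
      · intro h1
        rw [← map_inv, ← map_mul, ← map_mul] at h1
        exact hne (hcomm g h1)
    aT := ⟨a, h.aT, rfl⟩
    bT := ⟨b, h.bT, rfl⟩
    aS := hS a h.aS
    bS := hS b h.bS
    aa := by rw [← map_mul, h.aa, map_one]
    bb := by rw [← map_mul, h.bb, map_one]
    a1 := fun e1 => h.a1 (hinj a h.aT e1)
    b1 := fun e1 => h.b1 (hinj b h.bT e1)
    ab := by
      intro e1
      have h1 := hinj (a⁻¹ * b) (T.mul_mem (T.inv_mem h.aT) h.bT) (by rw [map_mul, map_inv, e1, inv_mul_cancel])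
      rw [inv_mul_eq_one] at h1
      exact h.ab h1
    cab := by rw [← map_mul, ← map_mul, h.cab]
    all := by
      intro p hp hpT
      rw [Sylow.coe_mapSurjective] at hp
      obtain ⟨s, hs, rfl⟩ := hp
      obtain ⟨x, hx, hxs⟩ := hpT
      have hz := heq _ _ hxs
      have hsx : s = x * (x⁻¹ * s) := by group
      set z := x⁻¹ * s with hzdef
      have hcm : ∀ u : G, s * u = u * s → x * u = u * x := by
        intro u hu
        have : x = s * z⁻¹ := by rw [hsx]; group
        rw [this]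
        calc s * z⁻¹ * u = s * (z⁻¹ * u) := by group
          _ = s * (u * z⁻¹) := by rw [hzc _ (inv_mem hz) u]
          _ = (s * u) * z⁻¹ := by group
          _ = (u * s) * z⁻¹ := by rw [hu]
          _ = u * (s * z⁻¹) := by group
      have h9 := h.tf.t3 ⟨a, h.aT⟩ ⟨Subtype.ext h.aa, fun e => h.a1 (congrArg Subtype.val e)⟩
        ⟨b, h.bT⟩ ⟨Subtype.ext h.bb, fun e => h.b1 (congrArg Subtype.val e),
        fun e => h.ab (congrArg Subtype.val e), Subtype.ext h.cab⟩ ⟨x, hx⟩
        ⟨Subtype.ext (hcm a (h.S_ab hs).1), Subtype.ext (hcm b (h.S_ab hs).2)⟩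
      show π s = 1 ∨ π s = π a ∨ π s = π b ∨ π s = π a * π b
      rw [← hxs]
      rcases h9 with h9 | h9 | h9 | h9
      · have h10 : x = 1 := congrArg Subtype.val h9
        left; rw [h10, map_one]
      · have h10 : x = a := congrArg Subtype.val h9
        right; left; rw [h10]
      · have h10 : x = b := congrArg Subtype.val h9
        right; right; left; rw [h10]
      · have h10 : x = a * b := congrArg Subtype.val h9
        right; right; right; rw [h10, map_mul] }

/-- if `S` is `V` extended by a central involution, then `S` is abelian -/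
theorem S_comm_of_card (hc : Nat.card S = 16) : IsMulCommutative (S : Subgroup G) := by
  have h1 : (h.V.subgroupOf (S : Subgroup G)).index = 2 := by
    have h2 := (h.V.subgroupOf (S : Subgroup G)).index_mul_card
    rw [SmallSimple.card_subgroupOf, inf_eq_left.2 h.V_le, h.card_V] at h2
    have h3 : Nat.card (S : Subgroup G) = 16 := hc
    omega
  refine ⟨⟨fun x y => ?_⟩⟩
  by_cases hx : (x : G) ∈ h.V
  · exact Subtype.ext (h.S_comm_V y.2 x hx).symm
  by_cases hy : (y : G) ∈ h.V
  · exact Subtype.ext (h.S_comm_V x.2 y hy)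
  have h4 : x⁻¹ * y ∈ h.V.subgroupOf (S : Subgroup G) := by
    rw [mul_mem_iff_of_index_two h1, inv_mem_iff, mem_subgroupOf, mem_subgroupOf]
    exact ⟨fun h5 => absurd h5 hx, fun h5 => absurd h5 hy⟩
  rw [mem_subgroupOf] at h4
  have h5 := h.S_comm_V x.2 _ h4
  apply Subtype.ext
  show (x : G) * y = y * x
  have h6 : (x : G) * ((x : G)⁻¹ * y) = ((x : G)⁻¹ * y) * x := h5
  calc (x : G) * y = x * (x * ((x : G)⁻¹ * y)) := by group
    _ = x * (((x : G)⁻¹ * y) * x) := by rw [h6]
    _ = y * x := by group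

/-- Step 3: the centre is trivial -/
theorem center_bot (htop : normalClosure ({t} : Set G) = ⊤)
    (IHq : ∀ (Z : Subgroup G) [Z.Normal], Z ≠ ⊥ → Z ≤ center G → Cfsg.Spor.IsoJ1 (normalClosure ({QuotientGroup.mk' Z t} : Set (G ⧸ Z)))) :
    center G = ⊥ := by
  by_contra hne
  have hcard : Nat.card (center G) ≠ 1 := by
    intro e
    exact hne (card_eq_one.1 e)
  obtain ⟨p, hp, hpd⟩ := Nat.exists_prime_and_dvd hcard
  haveI : Fact p.Prime := ⟨hp⟩
  obtain ⟨z, hz⟩ := exists_prime_orderOf_dvd_card' p hpd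
  set Z : Subgroup G := zpowers (z : G) with hZ
  have hZc : Z ≤ center G := by rw [hZ, zpowers_le]; exact z.2
  have hZn : Z.Normal := ⟨fun x hx g => by
    have := mem_center_iff.1 (hZc hx) g
    rw [this, mul_inv_cancel_right]; exact hx⟩
  have hzo : orderOf (z : G) = p := by rw [Subgroup.orderOf_coe]; exact hz
  have hZcard : Nat.card Z = p := by rw [hZ, Nat.card_zpowers, hzo]
  have hZne : Z ≠ ⊥ := by
    intro e
    rw [e, card_bot] at hZcard
    exact hp.one_lt.ne hZcard
  have h1 := IHq Z hZne hZc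
  have h2 : normalClosure ({QuotientGroup.mk' Z t} : Set (G ⧸ Z)) = ⊤ := by
    have := map_normalClosure ({t} : Set G) (QuotientGroup.mk' Z) (QuotientGroup.mk'_surjective Z)
    rw [Set.image_singleton] at this
    rw [← this, htop, ← MonoidHom.range_eq_map, MonoidHom.range_eq_top]
    exact QuotientGroup.mk'_surjective Z
  rw [h2] at h1
  have h3 : Nat.card (G ⧸ Z) = 175560 := by
    obtain ⟨f⟩ := h1
    rw [← JOne.card_W]
    exact Nat.card_congr ((topEquiv (G := G ⧸ Z)).symm.trans f).toEquiv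
  have hG : Nat.card G = 175560 * p := by
    rw [card_eq_card_quotient_mul_card_subgroup Z, h3, hZcard]
  have hperf := h.perfect htop
  -- a Sylow `p`-subgroup containing `z`
  have hZp : IsPGroup p Z := IsPGroup.of_card (n := 1) (by rw [hZcard, pow_one])
  obtain ⟨P, hZP⟩ := hZp.exists_le_sylow
  have hPc : IsMulCommutative (P : Subgroup G) := by
    by_cases hp2 : p = 2
    · subst hp2
      have hPcard : Nat.card P = 16 := by
        rw [Sylow.card_eq_multiplicity, hG, show 175560 * 2 = 2 ^ 4 * 21945 by norm_num,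
          Nat.factorization_mul (by norm_num) (by norm_num)]
        rw [Nat.Prime.factorization_pow Nat.prime_two]
        rw [Finsupp.add_apply, Finsupp.single_eq_same, Nat.factorization_eq_zero_of_not_dvd (by norm_num : ¬ 2 ∣ 21945)]
        norm_num
      have e := P.equiv S
      have hSc := h.S_comm_of_card (by rw [← hPcard]; exact (Nat.card_congr e.toEquiv).symm)
      exact ⟨⟨fun x y => e.injective (by rw [map_mul, map_mul]; exact hSc.is_comm.comm _ _)⟩⟩
    · obtain ⟨k, hk⟩ := P.2.exists_card_eq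
      have hkd : p ^ k ∣ 175560 * p := by rw [← hk, ← hG]; exact card_subgroup_dvd_card _
      have hk3 : k < 3 := by
        by_contra hk3
        push Not at hk3
        have h6 : p ^ 2 ∣ 175560 := by
          have h7 : p ^ 2 * p ∣ 175560 * p := by
            rw [← pow_succ]
            exact (pow_dvd_pow p hk3).trans hkd
          exact Nat.dvd_of_mul_dvd_mul_right hp.pos h7
        have h8 : Nat.Coprime (p ^ 2) (2 ^ 3) := Nat.Coprime.pow _ _ ((Nat.coprime_primes hp Nat.prime_two).2 hp2)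
        have h9 : p ^ 2 ∣ 21945 := h8.dvd_of_dvd_mul_left (by norm_num; exact h6)
        have h10 : Squarefree 21945 := by decide +kernel
        have h11 := h10 p (by rw [← sq]; exact h9)
        exact hp.one_lt.ne' (Nat.isUnit_iff.1 h11)
      by_cases hk2 : k = 2
      · subst hk2
        exact IsPGroup.isMulCommutative_of_card_eq_prime_sq hk
      · have : IsCyclic P := by
          have hk1 : k = 0 ∨ k = 1 := by omega
          rcases hk1 with rfl | rfl
          · have := (Nat.card_eq_one_iff_unique.1 (by rw [hk, pow_zero] : Nat.card P = 1)).1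
            infer_instance
          · exact isCyclic_of_prime_card (p := p) (by rw [hk, pow_one])
        exact ⟨⟨fun x y => by
          obtain ⟨g, hg⟩ := this
          obtain ⟨i, rfl⟩ := mem_zpowers_iff.1 (hg x)
          obtain ⟨j, rfl⟩ := mem_zpowers_iff.1 (hg y)
          rw [← zpow_add, ← zpow_add, add_comm]⟩⟩
  have h4 := TransferApps.abelian_hall_inf_commutator_inf_center (P : Subgroup G) hPc P.card_coprime_index
  have h5 : (z : G) ∈ (P : Subgroup G) ⊓ commutator G ⊓ center G :=
    mem_inf.2 ⟨mem_inf.2 ⟨hZP (mem_zpowers _), by rw [hperf]; exact mem_top _⟩, z.2⟩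
  rw [h4, mem_bot] at h5
  rw [h5, orderOf_one] at hzo
  exact hp.one_lt.ne hzo

end WL

end Cfsg.Agent.Lib.H10Wk
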