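import Cfsg.Agent.Lib.H10J175b
import Cfsg.Agent.Lib.JOneOut
import Cfsg.Agent.Lib.InvLocal
import Cfsg.Agent.Lib.SylowTools

set_option autoImplicit false
set_option linter.unusedSectionVars false

/-!
# Facts on groups isomorphic to `J₁`
-/

namespace Cfsg.Agent.Lib.H10Wk.JF

open Cfsg Subgroup Cfsg.Agent.Lib

variable {L : Type*} [Group L] (hJ : Cfsg.Spor.IsoJ1 L)
include hJ

theorem card : Nat.card L = 175560 := by
  obtain ⟨e⟩ := hJ
  rw [Nat.card_congr e.toEquiv]
  exact JOne.card_W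

theorem simple : IsSimpleGroup L := by
  obtain ⟨e⟩ := hJ
  have : IsSimpleGroup JOne.W := JOne.simple_W
  exact e.isSimpleGroup

theorem inner (α : MulAut L) : ∃ c : L, ∀ g, α g = c * g * c⁻¹ := by
  obtain ⟨e⟩ := hJ
  obtain ⟨c, hc⟩ := JOne.aut_inner ((e.symm.trans α).trans e : MulAut JOne.W)
  refine ⟨e.symm c, fun g => e.injective ?_⟩
  have h1 := hc (e g)
  have h2 : ((e.symm.trans α).trans e : MulAut JOne.W) (e g) = e (α g) := by
    show e (α (e.symm (e g))) = e (α g)
    rw [e.symm_apply_apply]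
  rw [h2] at h1
  rw [h1, map_mul, map_mul, map_inv, e.apply_symm_apply]

theorem conj {x y : L} (hx : orderOf x = 2) (hy : orderOf y = 2) : ∃ g : L, g * x * g⁻¹ = y := by
  obtain ⟨e⟩ := hJ
  have h1 := JOne.isConj_involution (y := e x) (by rw [MulEquiv.orderOf_eq]; exact hx)
  have h2 := JOne.isConj_involution (y := e y) (by rw [MulEquiv.orderOf_eq]; exact hy)
  obtain ⟨c, hc⟩ := isConj_iff.1 (h1.trans h2.symm)
  refine ⟨e.symm c, e.injective ?_⟩
  rw [map_mul, map_mul, map_inv, e.apply_symm_apply, hc]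

theorem card_cent {x : L} (hx : orderOf x = 2) : Nat.card (centralizer ({x} : Set L)) = 120 := by
  obtain ⟨e⟩ := hJ
  have h1 := JOne.isConj_involution (y := e x) (by rw [MulEquiv.orderOf_eq]; exact hx)
  rw [← JOne.card_cent_e, ← JOne.card_cent_conj h1]
  refine Nat.card_congr ((e.subgroupMap (centralizer ({x} : Set L))).toEquiv.trans (Equiv.setCongr ?_))
  ext y
  constructor
  · rintro ⟨z, hz, rfl⟩
    have h2 := mem_centralizer_singleton_iff.1 hz
    show e z ∈ centralizer ({e x} : Set JOne.W)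
    rw [mem_centralizer_singleton_iff, ← map_mul, h2, map_mul]
  · intro hy
    have h2 : y * e x = e x * y := mem_centralizer_singleton_iff.1 hy
    refine ⟨e.symm y, mem_centralizer_singleton_iff.2 (e.injective ?_), e.apply_symm_apply y⟩
    rw [map_mul, map_mul, e.apply_symm_apply, h2]

theorem dvd_of_trans [Finite L] (K : Subgroup L) {x : L} (hx : orderOf x = 2)
    (hall : ∀ y : L, orderOf y = 2 → ∃ k ∈ K, k * x * k⁻¹ = y) : 1463 ∣ Nat.card K := by
  set C := centralizer ({x} : Set L) with hC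
  have hCidx : C.index = 1463 := by
    have h1 := C.index_mul_card
    rw [card_cent hJ hx, card hJ] at h1
    omega
  have h2 : (C.subgroupOf K).index = C.index := by
    rw [index, index]
    refine Nat.card_congr (Equiv.ofBijective (Quotient.map' (fun k : K => (k : L)) ?_) ⟨?_, ?_⟩)
    · intro a b hab
      rw [QuotientGroup.leftRel_apply] at hab ⊢
      exact mem_subgroupOf.1 hab
    · rintro ⟨a⟩ ⟨b⟩ hab
      have h3 : (a : L)⁻¹ * b ∈ C := QuotientGroup.eq.1 hab
      exact QuotientGroup.eq.2 (mem_subgroupOf.2 h3)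
    · rintro ⟨g⟩
      obtain ⟨k, hk, hk2⟩ := hall (g * x * g⁻¹) (by rw [SylowTools.orderOf_conj']; exact hx)
      refine ⟨QuotientGroup.mk ⟨k, hk⟩, ?_⟩
      show (QuotientGroup.mk k : L ⧸ C) = QuotientGroup.mk g
      rw [QuotientGroup.eq, hC, mem_centralizer_singleton_iff]
      calc k⁻¹ * g * x = k⁻¹ * (g * x * g⁻¹) * g := by group
        _ = x * (k⁻¹ * g) := by rw [← hk2]; group
  rw [← hCidx, ← h2]
  exact Dvd.intro _ (C.subgroupOf K).index_mul_card

omit hJ in
theorem num (m n k c : ℕ) (hm : m % 7 = 1) (hmn : m * n = k) (hk : k = 1463 * c) (hkd : k ∣ 21945) (h7 : 7 ∣ n) (hn : n ∣ 42) : False := by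
  subst hk
  have hc : c ∣ 15 := by
    have : 1463 * c ∣ 1463 * 15 := hkd
    exact Nat.dvd_of_mul_dvd_mul_left (by norm_num) this
  have hc2 : c ∈ Nat.divisors 15 := Nat.mem_divisors.2 ⟨hc, by norm_num⟩
  have hn2 : n ∈ Nat.divisors 42 := Nat.mem_divisors.2 ⟨hn, by norm_num⟩
  have e1 : Nat.divisors 15 = {1, 3, 5, 15} := by decide +kernel
  have e2 : Nat.divisors 42 = {1, 2, 3, 6, 7, 14, 21, 42} := by decide +kernel
  rw [e1] at hc2
  rw [e2] at hn2
  simp only [Finset.mem_insert, Finset.mem_singleton] at hc2 hn2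
  rcases hn2 with rfl | rfl | rfl | rfl | rfl | rfl | rfl | rfl <;> rcases hc2 with rfl | rfl | rfl | rfl <;> omega

/-- no subgroup of odd order is transitive on the involutions -/
theorem no_odd [Finite L] (K : Subgroup L) (hK : Odd (Nat.card K)) {x : L} (hx : orderOf x = 2)
    (hall : ∀ y : L, orderOf y = 2 → ∃ k ∈ K, k * x * k⁻¹ = y) : False := by
  have hs := simple hJ
  have hcL := card hJ
  obtain ⟨c, hc⟩ := dvd_of_trans hJ K hx hall
  have hKd : Nat.card K ∣ 21945 := by
    have h1 : Nat.card K ∣ 175560 := hcL ▸ card_subgroup_dvd_card K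
    have h2 : Nat.Coprime (Nat.card K) (2 ^ 3) := (Nat.Coprime.pow_right _ (Nat.coprime_two_right.2 hK))
    exact h2.dvd_of_dvd_mul_left (by norm_num; exact h1)
  have : Fact (Nat.Prime 7) := ⟨by norm_num⟩
  have h7K : 7 ∣ Nat.card K := ⟨209 * c, by rw [hc]; ring⟩
  have hcardP := fun P : Sylow 7 L => H10J175.cardP hcL (p := 7) 25080 (by norm_num) (by norm_num) P
  obtain ⟨y, hy⟩ := exists_prime_orderOf_dvd_card' 7 h7K
  obtain ⟨P, hP⟩ := H10J175.exists_sylow_eq hcardP (y : L) (by rw [Subgroup.orderOf_coe]; exact hy)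
  have hPK : (P : Subgroup L) ≤ K := by rw [hP, zpowers_le]; exact y.2
  obtain ⟨m, hm, hm2⟩ := H10J175.exists_mod P K hPK
  have hn7 := (H10J175.numbers hcL).1
  have hN : Nat.card (normalizer ((P : Subgroup L) : Set L)) = 42 := by
    have h1 : Nat.card (Sylow 7 L) = (normalizer ((P : Subgroup L) : Set L)).index := P.card_eq_index_normalizer
    have h2 := (normalizer ((P : Subgroup L) : Set L)).index_mul_card
    rw [← h1, hn7, hcL] at h2
    omega
  refine num m _ _ c hm hm2 hc hKd ?_ ?_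
  · have h1 : (P : Subgroup L) ≤ normalizer ((P : Subgroup L) : Set L) ⊓ K := le_inf le_normalizer hPK
    have h2 := card_dvd_of_le h1
    rwa [hcardP P] at h2
  · rw [← hN]
    exact card_dvd_of_le inf_le_left

end Cfsg.Agent.Lib.H10Wk.JF
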