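import Cfsg.Agent.Lib.CoprimeAction2
import Cfsg.Agent.Lib.CopQuotGen

set_option autoImplicit false

/-!
# Counting lemmas and the class two lemma for Camina type configurations (helper12)
-/

namespace Cfsg.Agent.Lib.H12Cam2

open Cfsg
open scoped commutatorElement

universe u

/-- Orbits under conjugation by a subgroup. -/
theorem orbit_card {L : Type*} [Group L] [Finite L] (H : Subgroup L) (x : L) :
    Nat.card {y : L // ∃ u ∈ H, u * x * u⁻¹ = y} *
      Nat.card (H ⊓ Subgroup.centralizer {x} : Subgroup L) = Nat.card H := by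
  let _ : MulAction H L :=
    { smul := fun h y => h.1 * y * h.1⁻¹
      one_smul := by intro y; show (1 : L) * y * 1⁻¹ = y; group
      mul_smul := by
        intro a b y
        show (a.1 * b.1) * y * (a.1 * b.1)⁻¹ = a.1 * (b.1 * y * b.1⁻¹) * a.1⁻¹
        group }
  have hsm : ∀ (h : H) (y : L), h • y = h.1 * y * h.1⁻¹ := fun _ _ => rfl
  have h1 := MulAction.index_stabilizer H x
  have h2 : (MulAction.orbit H x).ncard = Nat.card {y : L // ∃ u ∈ H, u * x * u⁻¹ = y} := by
    rw [← Nat.card_coe_set_eq]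
    apply Nat.card_congr
    apply Equiv.subtypeEquivRight
    intro y
    constructor
    · rintro ⟨h, rfl⟩
      exact ⟨h.1, h.2, rfl⟩
    · rintro ⟨u, hu, rfl⟩
      exact ⟨⟨u, hu⟩, rfl⟩
  have h3 : Nat.card (MulAction.stabilizer H x) =
      Nat.card (H ⊓ Subgroup.centralizer {x} : Subgroup L) := by
    have h4 : MulAction.stabilizer H x = (H ⊓ Subgroup.centralizer {x}).subgroupOf H := by
      ext h
      rw [MulAction.mem_stabilizer_iff, hsm, Subgroup.mem_subgroupOf, Subgroup.mem_inf,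
        Subgroup.mem_centralizer_singleton_iff]
      constructor
      · intro h5
        refine ⟨h.2, ?_⟩
        rw [mul_inv_eq_iff_eq_mul] at h5
        exact h5
      · rintro ⟨-, h5⟩
        rw [mul_inv_eq_iff_eq_mul]
        exact h5
    rw [h4]
    exact Nat.card_congr (Subgroup.subgroupOfEquivOfLe inf_le_left).toEquiv
  rw [← h2, ← h1, ← h3, Subgroup.index_mul_card]

/-- All orbits on `X` of the same length. -/
theorem dvd_of_const_class {L : Type*} [Group L] [Finite L] (H : Subgroup L) (X : Set L)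
    (hX : ∀ h ∈ H, ∀ x ∈ X, h * x * h⁻¹ ∈ X) (e : ℕ)
    (he : ∀ x ∈ X, (H ⊓ Subgroup.centralizer {x}).relIndex H = e) : e ∣ Nat.card X := by
  classical
  let _ : MulAction H X :=
    { smul := fun h y => ⟨h.1 * y.1 * h.1⁻¹, hX h.1 h.2 y.1 y.2⟩
      one_smul := by
        intro y; apply Subtype.ext; show (1 : L) * y.1 * 1⁻¹ = y.1; group
      mul_smul := by
        intro a b y
        apply Subtype.ext
        show (a.1 * b.1) * y.1 * (a.1 * b.1)⁻¹ = a.1 * (b.1 * y.1 * b.1⁻¹) * a.1⁻¹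
        group }
  have hsm : ∀ (h : H) (y : X), ((h • y : X) : L) = h.1 * y.1 * h.1⁻¹ := fun _ _ => rfl
  have h1 : ∀ x : X, Nat.card (H ⧸ MulAction.stabilizer H x) = e := by
    intro x
    have h4 : MulAction.stabilizer H x = (H ⊓ Subgroup.centralizer {x.1}).subgroupOf H := by
      ext h
      rw [MulAction.mem_stabilizer_iff, Subtype.ext_iff, hsm, Subgroup.mem_subgroupOf,
        Subgroup.mem_inf, Subgroup.mem_centralizer_singleton_iff]
      constructor
      · intro h5
        refine ⟨h.2, ?_⟩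
        rw [mul_inv_eq_iff_eq_mul] at h5
        exact h5
      · rintro ⟨-, h5⟩
        rw [mul_inv_eq_iff_eq_mul]
        exact h5
    rw [h4]
    exact he x.1 x.2
  have : Fintype (Quotient (MulAction.orbitRel H X)) := Fintype.ofFinite _
  rw [Nat.card_congr (MulAction.selfEquivSigmaOrbitsQuotientStabilizer H X), Nat.card_sigma]
  apply Finset.dvd_sum
  intro ω _
  rw [h1]

/-- Commutators of `x` fill a coset. -/
theorem conj_coset {L : Type*} [Group L] [Finite L] {T T0 : Subgroup L} {x : L}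
    (hx : ∀ t ∈ T, x⁻¹ * (t * x * t⁻¹) ∈ T0)
    (hc : Nat.card (T ⊓ Subgroup.centralizer {x} : Subgroup L) * Nat.card T0 ≤ Nat.card T) :
    (∀ k ∈ T0, ∃ t ∈ T, t * x * t⁻¹ = x * k) ∧
    Nat.card (T ⊓ Subgroup.centralizer {x} : Subgroup L) * Nat.card T0 = Nat.card T := by
  set C := {y : L // ∃ u ∈ T, u * x * u⁻¹ = y} with hC
  let f : C → T0 := fun y => ⟨x⁻¹ * y.1, by
    obtain ⟨t, ht, h⟩ := y.2; rw [← h]; exact hx t ht⟩
  have hf : Function.Injective f := by
    intro a b hab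
    have := congrArg Subtype.val hab
    apply Subtype.ext
    exact mul_left_cancel this
  have h1 := orbit_card T x
  rw [← hC] at h1
  have h2 : Nat.card C ≤ Nat.card T0 := Nat.card_le_card_of_injective f hf
  have h0 : 0 < Nat.card (T ⊓ Subgroup.centralizer {x} : Subgroup L) := Nat.card_pos
  have h3 : Nat.card T0 ≤ Nat.card C := by
    by_contra hlt
    push Not at hlt
    have : Nat.card C * Nat.card (T ⊓ Subgroup.centralizer {x} : Subgroup L) <
        Nat.card (T ⊓ Subgroup.centralizer {x} : Subgroup L) * Nat.card T0 := by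
      rw [mul_comm]
      exact Nat.mul_lt_mul_of_pos_left hlt h0
    omega
  have h4 : Nat.card C = Nat.card T0 := le_antisymm h2 h3
  refine ⟨?_, by rw [← h1, ← h4, mul_comm]⟩
  have hb := (Nat.bijective_iff_injective_and_card f).mpr ⟨hf, h4⟩
  intro k hk
  obtain ⟨⟨y, t, ht, rfl⟩, hy⟩ := hb.2 ⟨k, hk⟩
  refine ⟨t, ht, ?_⟩
  have := congrArg Subtype.val hy
  have h5 : x⁻¹ * (t * x * t⁻¹) = k := this
  rw [← h5]; group

/-- If the conjugates of `x` fill the coset `xT0` then the centralizer has the right order. -/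
theorem card_of_coset {L : Type*} [Group L] [Finite L] {T T0 : Subgroup L} {x : L}
    (hx : ∀ t ∈ T, x⁻¹ * (t * x * t⁻¹) ∈ T0)
    (h1 : ∀ k ∈ T0, ∃ t ∈ T, t * x * t⁻¹ = x * k) :
    Nat.card (T ⊓ Subgroup.centralizer {x} : Subgroup L) * Nat.card T0 = Nat.card T := by
  have h2 := orbit_card T x
  rw [← h2, mul_comm]
  congr 1
  let f : {y : L // ∃ u ∈ T, u * x * u⁻¹ = y} → T0 := fun y => ⟨x⁻¹ * y.1, by
    obtain ⟨t, ht, h⟩ := y.2; rw [← h]; exact hx t ht⟩
  have hf : Function.Bijective f := by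
    constructor
    · intro a b hab
      have := congrArg Subtype.val hab
      apply Subtype.ext
      exact mul_left_cancel this
    · rintro ⟨k, hk⟩
      obtain ⟨t, ht, h⟩ := h1 k hk
      refine ⟨⟨_, t, ht, rfl⟩, ?_⟩
      apply Subtype.ext
      show x⁻¹ * (t * x * t⁻¹) = k
      rw [h]; group
  exact (Nat.card_congr (Equiv.ofBijective f hf)).symm

theorem arith {p m t l e f : ℕ} (hp : 2 ≤ p) (ht : 1 ≤ t) (htm : t < m) (hl : 1 ≤ l) (hlm : l < m)
    (he : e ∣ p ^ t - 1) (hf : f ∣ p ^ l - 1) (hef : e * f = p ^ m - 1) : False := by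
  have key : ∀ s e : ℕ, 1 ≤ s → s < m → e ∣ p ^ s - 1 → e ∣ p ^ m - 1 → e ≤ p ^ (m / 2) - 1 := by
    intro s e hs hsm h1 h2
    have h3 : e ∣ p ^ (Nat.gcd m s) - 1 := by
      rw [← Nat.pow_sub_one_gcd_pow_sub_one]
      exact Nat.dvd_gcd h2 h1
    have h4 : Nat.gcd m s ∣ m := Nat.gcd_dvd_left m s
    have h5 : 1 ≤ Nat.gcd m s := Nat.gcd_pos_of_pos_right m hs
    have h6 : Nat.gcd m s ≤ s := Nat.gcd_le_right m hs
    obtain ⟨c, hc⟩ := h4
    have h7 : 2 ≤ c := by
      by_contra hc2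
      push Not at hc2
      interval_cases c <;> omega
    have h8 : Nat.gcd m s ≤ m / 2 := by
      rw [Nat.le_div_iff_mul_le (by norm_num)]
      calc Nat.gcd m s * 2 ≤ Nat.gcd m s * c := Nat.mul_le_mul_left _ h7
        _ = m := hc.symm
    have h9 : 2 ≤ p ^ (Nat.gcd m s) := by
      calc 2 = 2 ^ 1 := rfl
        _ ≤ p ^ 1 := Nat.pow_le_pow_left hp 1
        _ ≤ _ := Nat.pow_le_pow_right (by omega) h5
    have h10 : p ^ (Nat.gcd m s) ≤ p ^ (m / 2) := Nat.pow_le_pow_right (by omega) h8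
    have h11 := Nat.le_of_dvd (by omega) h3
    omega
  have h1 := key t e ht htm he ⟨f, hef.symm⟩
  have h2 := key l f hl hlm hf ⟨e, by rw [mul_comm]; exact hef.symm⟩
  have h3 : p ^ m - 1 ≤ (p ^ (m / 2) - 1) * (p ^ (m / 2) - 1) := by
    rw [← hef]; exact Nat.mul_le_mul h1 h2
  have h4 : 1 ≤ m / 2 := by omega
  have h5 : 2 ≤ p ^ (m / 2) := by
    calc 2 = 2 ^ 1 := rfl
      _ ≤ p ^ 1 := Nat.pow_le_pow_left hp 1
      _ ≤ _ := Nat.pow_le_pow_right (by omega) h4
  have h6 : p ^ (m / 2) * p ^ (m / 2) ≤ p ^ m := by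
    rw [← pow_add]; exact Nat.pow_le_pow_right (by omega) (by omega)
  obtain ⟨a, ha⟩ : ∃ a, p ^ (m / 2) = a + 2 := ⟨p ^ (m / 2) - 2, by omega⟩
  rw [ha] at h3 h6
  have h7 : (a + 2 - 1) * (a + 2 - 1) = a * a + 2 * a + 1 := by
    have : a + 2 - 1 = a + 1 := by omega
    rw [this]; ring
  have h8 : (a + 2) * (a + 2) = a * a + 4 * a + 4 := by ring
  rw [h7] at h3
  rw [h8] at h6
  omega

end Cfsg.Agent.Lib.H12Cam2
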