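import Cfsg.Agent.Lib.H12Cam2

set_option autoImplicit false

/-!
# The class two lemma (helper12)
-/

namespace Cfsg.Agent.Lib.H12Cam3

open Cfsg Cfsg.Agent.Lib.H12Cam2
open scoped commutatorElement

theorem card_nontriv {M : Type*} [Group M] [Finite M] (W : Subgroup M) :
    Nat.card {z : M | z ∈ W ∧ z ≠ 1} = Nat.card W - 1 := by
  have h : {z : M | z ∈ W ∧ z ≠ 1} = (W : Set M) \ {1} := by
    ext z; simp
  rw [h, Nat.card_coe_set_eq, Set.ncard_sdiff_singleton_of_mem (one_mem W)]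
  rfl

theorem card_mul_relIdx {M : Type*} [Group M] [Finite M] (H K : Subgroup M) (h : H ≤ K) :
    Nat.card H * H.relIndex K = Nat.card K := by
  have h1 := (H.subgroupOf K).card_mul_index
  rw [Nat.card_congr (Subgroup.subgroupOfEquivOfLe h).toEquiv] at h1
  exact h1

theorem card_lt_of_lt {M : Type*} [Group M] [Finite M] {H K : Subgroup M} (h : H < K) :
    Nat.card H < Nat.card K := by
  have h1 := Set.ncard_lt_ncard (s := (H : Set M)) (t := (K : Set M)) h (Set.toFinite _)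
  exact h1

theorem s2core {L : Type*} [Group L] [Finite L] {p m : ℕ} [hp : Fact p.Prime] {P K0 : Subgroup L}
    (hPn : P.Normal) (hKn : K0.Normal) (hle : K0 ≤ P)
    (hPP : ∀ a ∈ P, ∀ b ∈ P, ⁅a, b⁆ ∈ K0) (hLL : ∀ a b : L, ⁅a, b⁆ ∈ P)
    (hPK : K0.relIndex P = p ^ m) (hLP : P.index = p ^ m - 1) (hP : IsPGroup p P)
    (h1 : ∀ x ∈ P, x ∉ K0 → ∀ k ∈ K0, ∃ u ∈ P, u * x * u⁻¹ = x * k)
    (h3 : ∀ x ∈ P, x ∉ K0 → ∀ y : L, x⁻¹ * (y * x * y⁻¹) ∈ K0 → y ∈ P)
    (hc : ∀ k ∈ K0, ∀ u ∈ P, ∀ v ∈ P, Commute ⁅k, u⁆ v) : ∀ k ∈ K0, ∀ u ∈ P, Commute k u := by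
  classical
  by_contra hcon
  push Not at hcon
  obtain ⟨y0, hy0, u0, hu0, hyu0⟩ := hcon
  have hp2 : 2 ≤ p := hp.out.two_le
  have hm : 1 ≤ m := by
    by_contra h
    have : m = 0 := by omega
    subst this
    exact (Subgroup.index_ne_zero_of_finite (H := P)) (by simpa using hLP)
  have hpm : 2 ≤ p ^ m := by
    calc 2 ≤ p := hp2
      _ = p ^ 1 := (pow_one p).symm
      _ ≤ p ^ m := Nat.pow_le_pow_right (by omega) hm
  obtain ⟨x0, hx0, hx0K⟩ : ∃ x0 ∈ P, x0 ∉ K0 := by
    by_contra h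
    push Not at h
    have : K0.relIndex P = 1 := Subgroup.relIndex_eq_one.mpr h
    omega
  -- commutators with `P` fix cosets
  have hcos : ∀ x ∈ P, ∀ t ∈ P, x⁻¹ * (t * x * t⁻¹) ∈ K0 := by
    intro x hx t ht
    have := hPP x⁻¹ (inv_mem hx) t ht
    rw [commutatorElement_def, inv_inv] at this
    have e : x⁻¹ * (t * x * t⁻¹) = x⁻¹ * t * x * t⁻¹ := by group
    rw [e]; exact this
  set Z0 : Subgroup L := K0 ⊓ Subgroup.centralizer (P : Set L) with hZ0
  have hZn : Z0.Normal := by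
    have h1 : (Subgroup.centralizer (P : Set L)).Normal := Subgroup.normal_centralizer
    exact Subgroup.normal_inf_normal K0 _
  have hZc : ∀ z ∈ Z0, ∀ u ∈ P, z * u = u * z := by
    intro z hz u hu
    exact ((Subgroup.mem_centralizer_iff.mp hz.2) u hu).symm
  have hcomZ : ∀ k ∈ K0, ∀ u ∈ P, ⁅k, u⁆ ∈ Z0 := by
    intro k hk u hu
    refine Subgroup.mem_inf.mpr ⟨?_, ?_⟩
    · have e : ⁅k, u⁆ = k * (u * k⁻¹ * u⁻¹) := by rw [commutatorElement_def]; group
      rw [e]
      exact mul_mem hk (hKn.conj_mem _ (inv_mem hk) u)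
    · rw [Subgroup.mem_centralizer_iff]
      intro v hv
      exact (hc k hk u hu v hv).eq.symm
  have hy0Z : y0 ∉ Z0 := by
    intro h
    exact hyu0 (hZc y0 h u0 hu0)
  -- `K0` is abelian
  have hab : ∀ y ∈ K0, ∀ k ∈ K0, y * k = k * y := by
    intro y hy k hk
    obtain ⟨u, hu, hxu⟩ := h1 x0 hx0 hx0K k hk
    have hk' : k = x0⁻¹ * (u * x0 * u⁻¹) := by rw [hxu]; group
    set c := ⁅y, x0⁆ with hcdef
    set d := ⁅y, u⁆ with hddef
    have hc0 := hcomZ y hy x0 hx0
    have hd0 := hcomZ y hy u hu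
    rw [← hcdef] at hc0
    rw [← hddef] at hd0
    have e1 : y * x0 * y⁻¹ = c * x0 := by rw [hcdef, commutatorElement_def]; group
    have e2 : y * u * y⁻¹ = d * u := by rw [hddef, commutatorElement_def]; group
    have hdP : d ∈ P := hle hd0.1
    have e3 : c⁻¹ * (d * u) * c = d * u := by
      rw [mul_assoc, ← hZc c hc0 (d * u) (mul_mem hdP hu)]; group
    have hq : u * x0 * u⁻¹ ∈ P := mul_mem (mul_mem hu hx0) (inv_mem hu)
    have e4 : d * (u * x0 * u⁻¹) * d⁻¹ = u * x0 * u⁻¹ := by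
      rw [hZc d hd0 _ hq]; group
    have e5 : y * k * y⁻¹ = k := by
      calc y * k * y⁻¹ = (y * x0 * y⁻¹)⁻¹ * (y * u * y⁻¹) * (y * x0 * y⁻¹) * (y * u * y⁻¹)⁻¹ := by
            rw [hk']; group
        _ = (c * x0)⁻¹ * (d * u) * (c * x0) * (d * u)⁻¹ := by rw [e1, e2]
        _ = x0⁻¹ * (c⁻¹ * (d * u) * c) * x0 * (d * u)⁻¹ := by group
        _ = x0⁻¹ * (d * (u * x0 * u⁻¹) * d⁻¹) := by rw [e3]; group
        _ = k := by rw [e4, hk']
    rwa [mul_inv_eq_iff_eq_mul] at e5
  let π := QuotientGroup.mk' Z0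
  have hπs : Function.Surjective π := QuotientGroup.mk'_surjective Z0
  have hπ1 : ∀ a : L, π a = 1 ↔ a ∈ Z0 := fun a => QuotientGroup.eq_one_iff a
  let S : L → Subgroup L := fun y => (Subgroup.centralizer {π y}).comap π
  have hS : ∀ l y : L, l ∈ S y ↔ y⁻¹ * (l * y * l⁻¹) ∈ Z0 := by
    intro l y
    rw [← hπ1]
    show π l ∈ Subgroup.centralizer {π y} ↔ _
    rw [Subgroup.mem_centralizer_singleton_iff, map_mul, map_mul, map_mul, map_inv, map_inv,
      inv_mul_eq_one, eq_comm, eq_mul_inv_iff_mul_eq, eq_comm]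
  obtain ⟨y, ⟨hy, hyZ⟩, hmax⟩ := Set.exists_max_image {y : L | y ∈ K0 ∧ y ∉ Z0}
    (fun y => Nat.card (S y)) (Set.toFinite _) ⟨y0, hy0, hy0Z⟩
  have hPS : ∀ w ∈ K0, P ≤ S w := by
    intro w hw l hl
    rw [hS]
    have := hcomZ w⁻¹ (inv_mem hw) l hl
    rw [commutatorElement_def, inv_inv] at this
    have e : w⁻¹ * (l * w * l⁻¹) = w⁻¹ * l * w * l⁻¹ := by group
    rw [e]; exact this
  set L1 : Subgroup L := S y with hL1
  have hPL1 : P ≤ L1 := hPS y hy
  have hL1n : L1.Normal := by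
    constructor
    intro l hl g
    have e : g * l * g⁻¹ = ⁅g, l⁆ * l := by rw [commutatorElement_def]; group
    rw [e]
    exact mul_mem (hPL1 (hLL g l)) hl
  set W : Subgroup L := K0 ⊓ (Subgroup.centralizer ((L1.map π : Subgroup (L ⧸ Z0)) : Set (L ⧸ Z0))).comap π
    with hW
  have hWn : W.Normal := by
    have h1 : (L1.map π).Normal := hL1n.map π hπs
    have h2 : (Subgroup.centralizer ((L1.map π : Subgroup (L ⧸ Z0)) : Set (L ⧸ Z0))).Normal :=
      Subgroup.normal_centralizer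
    have h3 := h2.comap π
    exact Subgroup.normal_inf_normal K0 _
  have hWS : ∀ w : L, w ∈ W ↔ w ∈ K0 ∧ L1 ≤ S w := by
    intro w
    rw [hW, Subgroup.mem_inf]
    apply and_congr_right
    intro _
    rw [Subgroup.mem_comap, Subgroup.mem_centralizer_iff]
    constructor
    · intro h l hl
      show π l ∈ Subgroup.centralizer {π w}
      rw [Subgroup.mem_centralizer_singleton_iff]
      exact h (π l) ⟨l, hl, rfl⟩
    · rintro h _ ⟨l, hl, rfl⟩
      have := h hl
      have h2 : π l ∈ Subgroup.centralizer {π w} := this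
      rw [Subgroup.mem_centralizer_singleton_iff] at h2
      exact h2
  have hWeq : ∀ w ∈ W, w ∉ Z0 → S w = L1 := by
    intro w hw hwZ
    obtain ⟨hwK, hwL⟩ := (hWS w).mp hw
    exact (Subgroup.eq_of_le_of_card_ge hwL (hmax w ⟨hwK, hwZ⟩)).symm
  have hyW : y ∈ W := (hWS y).mpr ⟨hy, le_rfl⟩
  -- the first divisibility
  have he : L1.index ∣ Nat.card (W.map π) - 1 := by
    rw [← card_nontriv]
    apply dvd_of_const_class ⊤
    · rintro h - _ ⟨⟨w, hw, rfl⟩, hne⟩
      obtain ⟨h, rfl⟩ := hπs h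
      refine ⟨⟨h * w * h⁻¹, hWn.conj_mem w hw h, by simp⟩, ?_⟩
      intro h'
      apply hne
      rw [mul_inv_eq_one] at h'
      simpa using h'
    · rintro _ ⟨⟨w, hw, rfl⟩, hne⟩
      have hwZ : w ∉ Z0 := fun h => hne ((hπ1 w).mpr h)
      rw [top_inf_eq, Subgroup.relIndex_top_right, ← hWeq w hw hwZ]
      exact (Subgroup.index_comap_of_surjective _ hπs).symm
  have hWp : IsPGroup p (W.map π) := by
    have : IsPGroup p W := hP.to_le (inf_le_left.trans hle)
    exact this.map π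
  obtain ⟨t, ht⟩ := IsPGroup.iff_card.mp hWp
  have ht1 : 1 ≤ t := by
    by_contra h
    have h0 : t = 0 := by omega
    rw [h0, pow_zero, Subgroup.card_eq_one] at ht
    have : π y ∈ W.map π := ⟨y, hyW, rfl⟩
    rw [ht, Subgroup.mem_bot, hπ1] at this
    exact hyZ this
  have htm : t < m := by
    have hTcard : (K0.map π).relIndex (P.map π) = p ^ m := by
      rw [Subgroup.relIndex_map_map, QuotientGroup.ker_mk', sup_eq_left.mpr inf_le_left,
        sup_eq_left.mpr (inf_le_left.trans hle), hPK]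
    have hKPm : K0.map π ≤ P.map π := Subgroup.map_mono hle
    have hTc : Nat.card (K0.map π) * p ^ m = Nat.card (P.map π) := by
      rw [← hTcard]; exact card_mul_relIdx (K0.map π) (P.map π) hKPm
    have hcc := card_of_coset (T := P.map π) (T0 := K0.map π) (x := π x0)
      (by
        rintro _ ⟨t, ht, rfl⟩
        refine ⟨x0⁻¹ * (t * x0 * t⁻¹), hcos x0 hx0 t ht, by simp⟩)
      (by
        rintro _ ⟨k, hk, rfl⟩
        obtain ⟨u, hu, hu2⟩ := h1 x0 hx0 hx0K k hk
        refine ⟨π u, ⟨u, hu, rfl⟩, ?_⟩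
        rw [← map_mul, ← map_inv, ← map_mul, hu2, map_mul])
    have hlt : K0.map π < P.map π ⊓ Subgroup.centralizer {π x0} := by
      refine lt_of_le_of_ne (le_inf hKPm ?_) ?_
      · rintro _ ⟨k, hk, rfl⟩
        rw [Subgroup.mem_centralizer_singleton_iff]
        have : π ⁅k, x0⁆ = 1 := (hπ1 _).mpr (hcomZ k hk x0 hx0)
        rwa [map_commutatorElement, commutatorElement_eq_one_iff_mul_comm] at this
      · intro heq
        have : π x0 ∈ K0.map π := by
          rw [heq]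
          exact Subgroup.mem_inf.mpr ⟨⟨x0, hx0, rfl⟩, by rw [Subgroup.mem_centralizer_singleton_iff]⟩
        obtain ⟨k, hk, hk2⟩ := this
        have h4 : k⁻¹ * x0 ∈ Z0 := by
          rw [← hπ1, map_mul, map_inv, hk2, inv_mul_cancel]
        apply hx0K
        have := mul_mem hk h4.1
        simpa using this
    have hclt : Nat.card (K0.map π) <
        Nat.card (P.map π ⊓ Subgroup.centralizer {π x0} : Subgroup (L ⧸ Z0)) :=
      card_lt_of_lt hlt
    have h0 : 0 < Nat.card (K0.map π) := Nat.card_pos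
    have h5 : Nat.card (P.map π ⊓ Subgroup.centralizer {π x0} : Subgroup (L ⧸ Z0)) = p ^ m := by
      rw [← hTc, mul_comm] at hcc
      exact Nat.eq_of_mul_eq_mul_left h0 hcc
    have h6 : Nat.card (W.map π) ≤ Nat.card (K0.map π) :=
      Subgroup.card_le_of_le (Subgroup.map_mono inf_le_left)
    rw [h5] at hclt
    rw [ht] at h6
    exact (Nat.pow_lt_pow_iff_right (by omega)).mp (h6.trans_lt hclt)
  -- the second part
  have hcP : Nat.card K0 * p ^ m = Nat.card P := by
    rw [← hPK]; exact card_mul_relIdx K0 P hle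
  have hZlt : Nat.card Z0 < p ^ m := by
    have hcc := card_of_coset (T := P) (T0 := K0) (x := x0) (hcos x0 hx0) (h1 x0 hx0 hx0K)
    have h5 : Nat.card (P ⊓ Subgroup.centralizer {x0} : Subgroup L) = p ^ m := by
      rw [← hcP, mul_comm] at hcc
      exact Nat.eq_of_mul_eq_mul_left Nat.card_pos hcc
    rw [← h5]
    apply card_lt_of_lt
    refine lt_of_le_of_ne (le_inf (inf_le_left.trans hle) ?_) ?_
    · intro z hz
      rw [Subgroup.mem_centralizer_singleton_iff]
      exact hZc z hz x0 hx0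
    · intro heq
      apply hx0K
      have : x0 ∈ Z0 := by
        rw [heq]
        exact Subgroup.mem_inf.mpr ⟨hx0, by rw [Subgroup.mem_centralizer_singleton_iff]⟩
      exact this.1
  set D : Subgroup L := P ⊓ Subgroup.centralizer {y} with hD
  have hKD : K0 ≤ D := le_inf hle (fun k hk => by
    rw [Subgroup.mem_centralizer_singleton_iff]; exact hab k hk y hy)
  have hDcard : Nat.card K0 < Nat.card D := by
    have h5 := orbit_card P y
    rw [← hD] at h5
    have h6 : Nat.card {z : L // ∃ u ∈ P, u * y * u⁻¹ = z} ≤ Nat.card Z0 := by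
      let f : {z : L // ∃ u ∈ P, u * y * u⁻¹ = z} → Z0 := fun z => ⟨y⁻¹ * z.1, by
        obtain ⟨u, hu, h⟩ := z.2
        rw [← h]
        exact (hS u y).mp (hPS y hy hu)⟩
      apply Nat.card_le_card_of_injective f
      intro a b hab
      have := congrArg Subtype.val hab
      apply Subtype.ext
      exact mul_left_cancel this
    by_contra hlt
    push Not at hlt
    have h7 : Nat.card {z : L // ∃ u ∈ P, u * y * u⁻¹ = z} * Nat.card D < p ^ m * Nat.card K0 := by
      calc _ ≤ Nat.card Z0 * Nat.card K0 := Nat.mul_le_mul h6 hlt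
        _ < p ^ m * Nat.card K0 := Nat.mul_lt_mul_of_pos_right hZlt Nat.card_pos
    rw [h5, ← hcP, mul_comm] at h7
    exact lt_irrefl _ h7
  have hDP : D ≤ P := inf_le_left
  have hDne : D ≠ P := by
    intro h
    apply hyZ
    refine Subgroup.mem_inf.mpr ⟨hy, ?_⟩
    rw [Subgroup.mem_centralizer_iff]
    intro u hu
    have : u ∈ D := h ▸ hu
    exact (Subgroup.mem_centralizer_singleton_iff.mp this.2)
  have hDp : IsPGroup p D := hP.to_le hDP
  let ρ := QuotientGroup.mk' K0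
  have hρs : Function.Surjective ρ := QuotientGroup.mk'_surjective K0
  have hρ1 : ∀ a : L, ρ a = 1 ↔ a ∈ K0 := fun a => QuotientGroup.eq_one_iff a
  obtain ⟨l, hl⟩ := IsPGroup.iff_card.mp (hDp.map ρ)
  have hDmap : Nat.card K0 * Nat.card (D.map ρ) = Nat.card D := by
    have h5 := card_mul_relIdx K0 D hKD
    have h6 : (D.map ρ).relIndex ⊥ = 1 := by simp
    have h7 : (K0.map ρ) = ⊥ := by
      rw [Subgroup.map_eq_bot_iff, QuotientGroup.ker_mk']
    have h8 : (K0.map ρ).relIndex (D.map ρ) = K0.relIndex D := by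
      rw [Subgroup.relIndex_map_map, QuotientGroup.ker_mk', sup_idem, sup_eq_left.mpr hKD]
    rw [h7, Subgroup.relIndex_bot_left] at h8
    rw [h8]; exact h5
  have hl1 : 1 ≤ l := by
    by_contra h
    have h0 : l = 0 := by omega
    rw [h0, pow_zero] at hl
    rw [hl, mul_one] at hDmap
    omega
  have hlm : l < m := by
    have h5 : Nat.card D < Nat.card P := card_lt_of_lt (lt_of_le_of_ne hDP hDne)
    rw [← hDmap, ← hcP, hl] at h5
    have h6 := Nat.lt_of_mul_lt_mul_left h5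
    exact (Nat.pow_lt_pow_iff_right (by omega)).mp h6
  have hf : P.relIndex L1 ∣ Nat.card (D.map ρ) - 1 := by
    rw [← card_nontriv]
    apply dvd_of_const_class (L1.map ρ)
    · rintro _ ⟨h, hh, rfl⟩ _ ⟨⟨d, hd, rfl⟩, hne⟩
      refine ⟨⟨h * d * h⁻¹, ?_, by simp⟩, ?_⟩
      · refine Subgroup.mem_inf.mpr ⟨hPn.conj_mem d hd.1 h, ?_⟩
        rw [Subgroup.mem_centralizer_singleton_iff]
        have h5 : y⁻¹ * (h * y * h⁻¹) ∈ Z0 := (hS h y).mp hh
        set z := y⁻¹ * (h * y * h⁻¹) with hz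
        have h6 : h * y * h⁻¹ = y * z := by rw [hz]; group
        have h7 : d * y = y * d := Subgroup.mem_centralizer_singleton_iff.mp hd.2
        have h8 : (h * d * h⁻¹) * (y * z) = (y * z) * (h * d * h⁻¹) := by
          rw [← h6]
          calc (h * d * h⁻¹) * (h * y * h⁻¹) = h * (d * y) * h⁻¹ := by group
            _ = h * (y * d) * h⁻¹ := by rw [h7]
            _ = _ := by group
        have h9 := hZc z h5 (h * d * h⁻¹) (hPn.conj_mem d hd.1 h)
        have h10 : (h * d * h⁻¹) * y * z = y * (h * d * h⁻¹) * z := by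
          rw [mul_assoc, h8, mul_assoc, h9]; group
        exact mul_right_cancel h10
      · intro h'
        apply hne
        rw [mul_inv_eq_one] at h'
        simpa using h'
    · rintro _ ⟨⟨d, hd, rfl⟩, hne⟩
      have hdK : d ∉ K0 := fun h => hne ((hρ1 d).mpr h)
      have h5 : L1.map ρ ⊓ Subgroup.centralizer {ρ d} = P.map ρ := by
        apply le_antisymm
        · rintro _ ⟨⟨a, ha, rfl⟩, hb⟩
          refine ⟨a, ?_, rfl⟩
          apply h3 d (hDP hd) hdK a
          replace hb : ρ a ∈ Subgroup.centralizer {ρ d} := hb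
          rw [Subgroup.mem_centralizer_singleton_iff] at hb
          rw [← hρ1, map_mul, map_mul, map_mul, map_inv, map_inv, hb]
          group
        · rintro _ ⟨a, ha, rfl⟩
          refine Subgroup.mem_inf.mpr ⟨⟨a, hPL1 ha, rfl⟩, ?_⟩
          rw [Subgroup.mem_centralizer_singleton_iff]
          have h6 : ρ ⁅a, d⁆ = 1 := (hρ1 _).mpr (hPP a ha d (hDP hd))
          rwa [map_commutatorElement, commutatorElement_eq_one_iff_mul_comm] at h6
      rw [h5, Subgroup.relIndex_map_map, QuotientGroup.ker_mk', sup_eq_left.mpr hle,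
        sup_eq_left.mpr (hle.trans hPL1)]
  have hef := Subgroup.relIndex_mul_index hPL1
  rw [hLP, mul_comm] at hef
  rw [ht] at he
  rw [hl] at hf
  exact arith hp2 ht1 htm hl1 hlm he hf hef

/-- The class two lemma. -/
theorem s2 {L : Type*} [Group L] [Finite L] {p m : ℕ} [hp : Fact p.Prime] {P K0 : Subgroup L}
    (hPn : P.Normal) (hKn : K0.Normal) (hle : K0 ≤ P)
    (hPP : ∀ a ∈ P, ∀ b ∈ P, ⁅a, b⁆ ∈ K0) (hLL : ∀ a b : L, ⁅a, b⁆ ∈ P)
    (hPK : K0.relIndex P = p ^ m) (hLP : P.index = p ^ m - 1) (hP : IsPGroup p P)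
    (h1 : ∀ x ∈ P, x ∉ K0 → ∀ k ∈ K0, ∃ u ∈ P, u * x * u⁻¹ = x * k)
    (h3 : ∀ x ∈ P, x ∉ K0 → ∀ y : L, x⁻¹ * (y * x * y⁻¹) ∈ K0 → y ∈ P) :
    ∀ k ∈ K0, ∀ u ∈ P, Commute k u := by
  set V : Subgroup L := ⁅K0, P⁆ with hV
  have hVn : V.Normal := Subgroup.commutator_normal K0 P
  set M : Subgroup L := ⁅V, P⁆ with hM
  have hMn : M.Normal := Subgroup.commutator_normal V P
  have hVK : V ≤ K0 := Subgroup.commutator_le_left K0 P
  have hMV : M ≤ V := Subgroup.commutator_le_left V P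
  have hMK : M ≤ K0 := hMV.trans hVK
  let π := QuotientGroup.mk' M
  have hπs : Function.Surjective π := QuotientGroup.mk'_surjective M
  have hπ1 : ∀ a : L, π a = 1 ↔ a ∈ M := fun a => QuotientGroup.eq_one_iff a
  have hmemK : ∀ a : L, π a ∈ K0.map π → a ∈ K0 := by
    rintro a ⟨k, hk, hk2⟩
    have h4 : k⁻¹ * a ∈ M := by rw [← hπ1, map_mul, map_inv, hk2, inv_mul_cancel]
    have := mul_mem hk (hMK h4)
    simpa using this
  have hmemP : ∀ a : L, π a ∈ P.map π → a ∈ P := by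
    rintro a ⟨k, hk, hk2⟩
    have h4 : k⁻¹ * a ∈ M := by rw [← hπ1, map_mul, map_inv, hk2, inv_mul_cancel]
    have := mul_mem hk (hle (hMK h4))
    simpa using this
  have key := s2core (L := L ⧸ M) (p := p) (m := m) (P := P.map π) (K0 := K0.map π)
    (hPn.map π hπs) (hKn.map π hπs) (Subgroup.map_mono hle)
    (by
      rintro _ ⟨a, ha, rfl⟩ _ ⟨b, hb, rfl⟩
      exact ⟨⁅a, b⁆, hPP a ha b hb, map_commutatorElement _ _ _⟩)
    (by
      intro a b
      obtain ⟨a, rfl⟩ := hπs a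
      obtain ⟨b, rfl⟩ := hπs b
      exact ⟨⁅a, b⁆, hLL a b, map_commutatorElement _ _ _⟩)
    (by
      rw [Subgroup.relIndex_map_map, QuotientGroup.ker_mk', sup_eq_left.mpr hMK,
        sup_eq_left.mpr (hMK.trans hle), hPK])
    (by
      rw [Subgroup.index_map_eq _ hπs (by rw [QuotientGroup.ker_mk']; exact hMK.trans hle), hLP])
    (hP.map π)
    (by
      rintro _ ⟨x, hx, rfl⟩ hxK _ ⟨k, hk, rfl⟩
      obtain ⟨u, hu, h⟩ := h1 x hx (fun h => hxK ⟨x, h, rfl⟩) k hk
      exact ⟨π u, ⟨u, hu, rfl⟩, by rw [← map_mul, ← map_inv, ← map_mul, h, map_mul]⟩)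
    (by
      rintro _ ⟨x, hx, rfl⟩ hxK y hy
      obtain ⟨y, rfl⟩ := hπs y
      refine ⟨y, h3 x hx (fun h => hxK ⟨x, h, rfl⟩) y (hmemK _ ?_), rfl⟩
      simpa only [map_mul, map_inv] using hy)
    (by
      rintro _ ⟨k, hk, rfl⟩ _ ⟨u, hu, rfl⟩ _ ⟨v, hv, rfl⟩
      have h5 : ⁅⁅k, u⁆, v⁆ ∈ M :=
        Subgroup.commutator_mem_commutator (Subgroup.commutator_mem_commutator hk hu) hv
      have h6 : π ⁅⁅k, u⁆, v⁆ = 1 := (hπ1 _).mpr h5
      rw [map_commutatorElement, map_commutatorElement,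
        commutatorElement_eq_one_iff_mul_comm] at h6
      exact h6)
  have hVM : V ≤ M := by
    rw [hV, Subgroup.commutator_le]
    intro k hk u hu
    have h4 : Commute (π k) (π u) := key (π k) ⟨k, hk, rfl⟩ (π u) ⟨u, hu, rfl⟩
    rw [← hπ1, map_commutatorElement, commutatorElement_eq_one_iff_mul_comm]
    exact h4
  have hVb : V = ⊥ := by
    by_contra hne
    have h4 := CoprimeAction2.commutator_lt_of_pgroup (p := p) hP (hP.to_le (hVK.trans hle))
      (by rw [Subgroup.normalizer_eq_top_iff.mpr hVn]; exact le_top) hne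
    exact absurd (lt_of_le_of_lt hVM h4) (lt_irrefl _)
  intro k hk u hu
  have h4 : ⁅k, u⁆ ∈ V := Subgroup.commutator_mem_commutator hk hu
  rw [hVb, Subgroup.mem_bot, commutatorElement_eq_one_iff_mul_comm] at h4
  exact h4

end Cfsg.Agent.Lib.H12Cam3
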