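import Cfsg.Agent.Lib.H12Cam3

set_option autoImplicit false

/-!
# The basic structure of a Camina type configuration (helper12)
-/

namespace Cfsg.Agent.Lib.H12Cam4

open Cfsg Cfsg.Agent.Lib.H12Cam2 Cfsg.Agent.Lib.H12Cam3
open scoped commutatorElement

/-- Abelian normal `A ≥ Q'`, all nontrivial elements conjugate, `Z(Q) ≤ A`, `A` not central. -/
theorem lemQ {Q : Type*} [Group Q] [Finite Q] (A : Subgroup Q) (hAn : A.Normal)
    (hab : ∀ a ∈ A, ∀ b ∈ A, a * b = b * a) (hQA : ∀ x y : Q, ⁅x, y⁆ ∈ A)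
    (hconj : ∀ a ∈ A, a ≠ 1 → ∀ b ∈ A, b ≠ 1 → IsConj a b)
    (hZ : ∀ z : Q, (∀ y : Q, z * y = y * z) → z ∈ A)
    (hnc : ∃ a ∈ A, ∃ x : Q, a * x ≠ x * a) :
    (∀ a ∈ A, a ≠ 1 → ∀ y : Q, a * y = y * a → y ∈ A) ∧ A.index = Nat.card A - 1 := by
  have step1 : ∀ a ∈ A, a ≠ 1 → ∀ x : Q, a * x = x * a → ∀ b ∈ A, b * x = x * b := by
    intro a ha ha1 x hax b hb
    by_cases hb1 : b = 1
    · rw [hb1, one_mul, mul_one]
    obtain ⟨g, hg⟩ := isConj_iff.mp (hconj a ha ha1 b hb hb1)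
    have h1 : b * (g * x * g⁻¹) = (g * x * g⁻¹) * b := by
      rw [← hg]
      calc g * a * g⁻¹ * (g * x * g⁻¹) = g * (a * x) * g⁻¹ := by group
        _ = g * (x * a) * g⁻¹ := by rw [hax]
        _ = _ := by group
    have h2 : g * x * g⁻¹ = ⁅g, x⁆ * x := by rw [commutatorElement_def]; group
    have h3 := hab b hb _ (hQA g x)
    rw [h2] at h1
    have h4 : ⁅g, x⁆ * (b * x) = ⁅g, x⁆ * (x * b) := by
      rw [← mul_assoc, ← h3, mul_assoc, h1, mul_assoc]
    exact mul_left_cancel h4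
  obtain ⟨a0, ha0, x, hx⟩ := hnc
  have hfree : ∀ a ∈ A, a * x = x * a → a = 1 := by
    intro a ha hax
    by_contra h
    exact hx (step1 a ha h x hax a0 ha0)
  have hsurj : ∀ y : Q, ∃ a ∈ A, (a⁻¹ * y) * x = x * (a⁻¹ * y) := by
    let f : A → A := fun a => ⟨⁅(a : Q), x⁆, hQA _ _⟩
    have hf : Function.Injective f := by
      intro a b hab'
      have h1 : ⁅(a : Q), x⁆ = ⁅(b : Q), x⁆ := congrArg Subtype.val hab'
      rw [commutatorElement_def, commutatorElement_def] at h1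
      have h2 : (a : Q) * x * (a : Q)⁻¹ = b * x * (b : Q)⁻¹ := mul_right_cancel h1
      have h3 : ((b : Q)⁻¹ * a) * x = x * ((b : Q)⁻¹ * a) := by
        calc ((b : Q)⁻¹ * a) * x = (b : Q)⁻¹ * (a * x * (a : Q)⁻¹) * a := by group
          _ = (b : Q)⁻¹ * (b * x * (b : Q)⁻¹) * a := by rw [h2]
          _ = _ := by group
      have h4 := hfree _ (mul_mem (inv_mem b.2) a.2) h3
      rw [inv_mul_eq_one] at h4
      exact Subtype.ext h4.symm
    have hf2 := Finite.surjective_of_injective hf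
    intro y
    obtain ⟨a, ha⟩ := hf2 ⟨⁅y, x⁆, hQA _ _⟩
    have h1 : ⁅(a : Q), x⁆ = ⁅y, x⁆ := congrArg Subtype.val ha
    rw [commutatorElement_def, commutatorElement_def] at h1
    have h2 : (a : Q) * x * (a : Q)⁻¹ = y * x * y⁻¹ := mul_right_cancel h1
    refine ⟨a, a.2, ?_⟩
    calc ((a : Q)⁻¹ * y) * x = (a : Q)⁻¹ * (y * x * y⁻¹) * y := by group
      _ = (a : Q)⁻¹ * (a * x * (a : Q)⁻¹) * y := by rw [h2]
      _ = _ := by group
  have hCab : ∀ u v : Q, u * x = x * u → v * x = x * v → u * v = v * u := by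
    intro u v hu hv
    have h1 : ⁅u, v⁆ * x = x * ⁅u, v⁆ := by
      have hu' : u ∈ Subgroup.centralizer {x} := by
        rw [Subgroup.mem_centralizer_singleton_iff]; exact hu
      have hv' : v ∈ Subgroup.centralizer {x} := by
        rw [Subgroup.mem_centralizer_singleton_iff]; exact hv
      have h2 : ⁅u, v⁆ ∈ Subgroup.centralizer {x} := by
        rw [commutatorElement_def]
        exact mul_mem (mul_mem (mul_mem hu' hv') (inv_mem hu')) (inv_mem hv')
      rw [Subgroup.mem_centralizer_singleton_iff] at h2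
      exact h2
    have h2 := hfree _ (hQA u v) h1
    exact commutatorElement_eq_one_iff_mul_comm.mp h2
  have step4 : ∀ y : Q, (∀ b ∈ A, b * y = y * b) → y ∈ A := by
    intro y hy
    obtain ⟨a, ha, hax⟩ := hsurj y
    set h := a⁻¹ * y with hh
    have hyah : y = a * h := by rw [hh]; group
    have hhA : ∀ b ∈ A, b * h = h * b := by
      intro b hb
      rw [hh]
      have h1 := hab b hb a⁻¹ (inv_mem ha)
      rw [← mul_assoc, h1, mul_assoc, hy b hb, mul_assoc]
    have hcen : ∀ w : Q, h * w = w * h := by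
      intro w
      obtain ⟨b, hb, hbx⟩ := hsurj w
      have h1 := hCab h (b⁻¹ * w) hax hbx
      have h2 : w = b * (b⁻¹ * w) := by group
      rw [h2, ← mul_assoc, ← hhA b hb, mul_assoc, h1]
      group
    rw [hyah]
    exact mul_mem ha (hZ h hcen)
  have concl1 : ∀ a ∈ A, a ≠ 1 → ∀ y : Q, a * y = y * a → y ∈ A := by
    intro a ha ha1 y hy
    exact step4 y (step1 a ha ha1 y hy)
  refine ⟨concl1, ?_⟩
  have ha01 : a0 ≠ 1 := by
    rintro rfl
    exact hx (by rw [one_mul, mul_one])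
  have h1 := orbit_card (⊤ : Subgroup Q) a0
  have h2 : (⊤ ⊓ Subgroup.centralizer {a0} : Subgroup Q) = A := by
    rw [top_inf_eq]
    ext y
    rw [Subgroup.mem_centralizer_singleton_iff]
    exact ⟨fun h => concl1 a0 ha0 ha01 y h.symm, fun h => (hab a0 ha0 y h).symm⟩
  have h3 : Nat.card {y : Q // ∃ u ∈ (⊤ : Subgroup Q), u * a0 * u⁻¹ = y} = Nat.card A - 1 := by
    rw [← card_nontriv A]
    apply Nat.card_congr
    apply Equiv.subtypeEquivRight
    intro y
    constructor
    · rintro ⟨u, -, rfl⟩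
      refine ⟨hAn.conj_mem a0 ha0 u, ?_⟩
      intro h
      apply ha01
      rw [mul_inv_eq_one] at h
      simpa using h
    · rintro ⟨hy, hy1⟩
      obtain ⟨u, hu⟩ := isConj_iff.mp (hconj a0 ha0 ha01 y hy hy1)
      exact ⟨u, trivial, hu⟩
  rw [h2, h3, Subgroup.card_top] at h1
  have h4 := A.card_mul_index
  rw [← h1, mul_comm] at h4
  exact Nat.eq_of_mul_eq_mul_right Nat.card_pos h4

/-- The common facts. -/
structure Base {G : Type*} [Group G] (K N : Subgroup G) (p m : ℕ) : Prop where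
  hp : p.Prime
  hm : 1 ≤ m
  hK : K.Normal
  hN : N.Normal
  hKN : K ≤ N
  hNN : ∀ a ∈ N, ∀ b ∈ N, ⁅a, b⁆ ∈ K
  hGG : ∀ a b : G, ⁅a, b⁆ ∈ N
  hpow : ∀ a ∈ N, a ^ p ∈ K
  hrel : K.relIndex N = p ^ m
  hpel : ∀ x ∈ N, x ∉ K → ∃ k, orderOf x = p ^ k

/-- The main case. -/
structure Cfg {G : Type*} [Group G] (K N : Subgroup G) (p m : ℕ) : Prop extends Base K N p m where
  hidx : N.index = p ^ m - 1
  hQ1 : ∀ x ∈ N, x ∉ K → ∀ y : G, ⁅x, y⁆ ∈ K → y ∈ N
  hcent : ∀ x ∈ N, x ∉ K → Nat.card (Subgroup.centralizer ({x} : Set G)) = p ^ m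

theorem config {G : Type*} [Group G] [Finite G] (K : Subgroup G) (hK : K.Normal)
    (hlt : K < commutator G)
    (hcl : ∀ x ∈ commutator G, x ∉ K → ∀ y ∈ commutator G, y ∉ K → IsConj x y)
    (hZ : ∀ z : G, (∀ y : G, ⁅z, y⁆ ∈ K) → z ∈ commutator G) :
    ∃ p m, Cfg K (commutator G) p m ∨ (Base K (commutator G) p m ∧ p = 2 ∧ m = 1 ∧
      (∀ x ∈ commutator G, ∀ y : G, ⁅x, y⁆ ∈ K)) := by
  classical
  set N := commutator G with hNdef
  have hNn : N.Normal := inferInstance
  have hGG : ∀ a b : G, ⁅a, b⁆ ∈ N := fun a b =>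
    Subgroup.commutator_mem_commutator (Subgroup.mem_top a) (Subgroup.mem_top b)
  let π := QuotientGroup.mk' K
  have hπs : Function.Surjective π := QuotientGroup.mk'_surjective K
  have hπ1 : ∀ a : G, π a = 1 ↔ a ∈ K := fun a => QuotientGroup.eq_one_iff a
  set A := N.map π with hA
  have hAn : A.Normal := hNn.map π hπs
  have hmemN : ∀ a : G, π a ∈ A → a ∈ N := by
    rintro a ⟨k, hk, hk2⟩
    have h4 : k⁻¹ * a ∈ K := by rw [← hπ1, map_mul, map_inv, hk2, inv_mul_cancel]
    have := mul_mem hk (hlt.le h4)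
    simpa using this
  have hconj : ∀ a ∈ A, a ≠ 1 → ∀ b ∈ A, b ≠ 1 → IsConj a b := by
    rintro _ ⟨a, ha, rfl⟩ ha1 _ ⟨b, hb, rfl⟩ hb1
    have h1 := hcl a ha (fun h => ha1 ((hπ1 a).mpr h)) b hb (fun h => hb1 ((hπ1 b).mpr h))
    obtain ⟨g, hg⟩ := isConj_iff.mp h1
    rw [isConj_iff]
    exact ⟨π g, by rw [← map_mul, ← map_inv, ← map_mul, hg]⟩
  obtain ⟨x0, hx0, hx0K⟩ : ∃ x0 ∈ N, x0 ∉ K := SetLike.exists_of_lt hlt
  have hAnt : Nat.card A ≠ 1 := by
    intro h
    rw [Subgroup.card_eq_one] at h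
    have : π x0 ∈ A := ⟨x0, hx0, rfl⟩
    rw [h, Subgroup.mem_bot, hπ1] at this
    exact hx0K this
  obtain ⟨p, hp, hpd⟩ := Nat.exists_prime_and_dvd hAnt
  have hfp : Fact p.Prime := ⟨hp⟩
  obtain ⟨a1, ha1⟩ := exists_prime_orderOf_dvd_card' p hpd
  have ha1' : (a1 : G ⧸ K) ≠ 1 := by
    intro h
    have : a1 = 1 := Subtype.ext h
    rw [this, orderOf_one] at ha1
    exact hp.one_lt.ne ha1
  have hpowA : ∀ a ∈ A, a ^ p = 1 := by
    intro a ha
    by_cases h1 : a = 1
    · rw [h1, one_pow]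
    obtain ⟨g, hg⟩ := isConj_iff.mp (hconj a1 a1.2 ha1' a ha h1)
    rw [← hg, conj_pow]
    have : (a1 : G ⧸ K) ^ p = 1 := by
      rw [← ha1, ← Subgroup.orderOf_coe, pow_orderOf_eq_one]
    rw [this]; group
  have hAp : IsPGroup p A := by
    rintro ⟨a, ha⟩
    refine ⟨1, ?_⟩
    rw [pow_one]
    exact Subtype.ext (hpowA a ha)
  have hAab : ∀ a ∈ A, ∀ b ∈ A, a * b = b * a := by
    have hntA : Nontrivial A := by
      rw [Subgroup.nontrivial_iff_ne_bot]
      intro h
      exact hAnt (by rw [h]; simp)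
    have hc := hAp.center_nontrivial
    obtain ⟨⟨⟨z, hzA⟩, hzc⟩, hz1⟩ := exists_ne (1 : Subgroup.center A)
    have hz1' : z ≠ 1 := by
      intro h
      apply hz1
      apply Subtype.ext
      exact Subtype.ext h
    intro a ha b hb
    by_cases h1 : a = 1
    · rw [h1, one_mul, mul_one]
    obtain ⟨g, hg⟩ := isConj_iff.mp (hconj z hzA hz1' a ha h1)
    have h2 : g⁻¹ * b * g ∈ A := by
      have := hAn.conj_mem b hb g⁻¹
      rwa [inv_inv] at this
    have h3 := Subgroup.mem_center_iff.mp hzc ⟨_, h2⟩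
    have h4 : (g⁻¹ * b * g) * z = z * (g⁻¹ * b * g) := congrArg Subtype.val h3
    rw [← hg]
    calc g * z * g⁻¹ * b = g * (z * (g⁻¹ * b * g)) * g⁻¹ := by group
      _ = g * ((g⁻¹ * b * g) * z) * g⁻¹ := by rw [h4]
      _ = _ := by group
  obtain ⟨m, hm⟩ := IsPGroup.iff_card.mp hAp
  have hm1 : 1 ≤ m := by
    by_contra h
    have : m = 0 := by omega
    subst this
    exact hAnt (by rw [hm, pow_zero])
  have hcardA : K.relIndex N = p ^ m := by
    have h1 : (K.map π) = ⊥ := by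
      rw [Subgroup.map_eq_bot_iff, QuotientGroup.ker_mk']
    have h2 : (K.map π).relIndex (N.map π) = K.relIndex N := by
      rw [Subgroup.relIndex_map_map, QuotientGroup.ker_mk', sup_idem, sup_eq_left.mpr hlt.le]
    rw [← h2, h1, Subgroup.relIndex_bot_left, ← hm]
  have hcomm : ∀ a b : G, ⁅a, b⁆ ∈ K ↔ π a * π b = π b * π a := by
    intro a b
    rw [← hπ1, map_commutatorElement, commutatorElement_eq_one_iff_mul_comm]
  have hpowK : ∀ a ∈ N, a ^ p ∈ K := by
    intro a ha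
    rw [← hπ1, map_pow]
    exact hpowA _ ⟨a, ha, rfl⟩
  have hbase : Base K N p m :=
    { hp := hp
      hm := hm1
      hK := hK
      hN := hNn
      hKN := hlt.le
      hNN := by
        intro a ha b hb
        rw [hcomm]
        exact hAab _ ⟨a, ha, rfl⟩ _ ⟨b, hb, rfl⟩
      hGG := hGG
      hpow := hpowK
      hrel := hcardA
      hpel := by
        have h0 : ∃ x ∈ N, x ∉ K ∧ ∃ k, orderOf x = p ^ k := by
          obtain ⟨k, r, hr, hord⟩ := Nat.exists_eq_pow_mul_and_not_dvd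
            (n := orderOf x0) (orderOf_pos x0).ne' p hp.ne_one
          refine ⟨x0 ^ r, pow_mem hx0 r, ?_, k, ?_⟩
          · intro h
            have hcop : Nat.Coprime p r := (Nat.Prime.coprime_iff_not_dvd hp).mpr hr
            have hcop' : IsCoprime (p : ℤ) (r : ℤ) := Nat.isCoprime_iff_coprime.mpr hcop
            obtain ⟨u, v, huv⟩ := hcop'
            apply hx0K
            have h1 : x0 = (x0 ^ p) ^ u * (x0 ^ r) ^ v := by
              rw [← zpow_natCast x0 p, ← zpow_natCast x0 r, ← zpow_mul, ← zpow_mul, ← zpow_add,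
                mul_comm (p : ℤ) u, mul_comm (r : ℤ) v, huv, zpow_one]
            rw [h1]
            exact mul_mem (zpow_mem (hpowK x0 hx0) u) (zpow_mem h v)
          · have hr0 : r ≠ 0 := by rintro rfl; exact hr (dvd_zero p)
            rw [orderOf_pow_of_dvd hr0 ⟨p ^ k, by rw [hord, mul_comm]⟩, hord,
              Nat.mul_div_cancel _ (Nat.pos_of_ne_zero hr0)]
        obtain ⟨x, hx, hxK, k, hk⟩ := h0
        intro y hy hyK
        refine ⟨k, ?_⟩
        obtain ⟨g, hg⟩ := isConj_iff.mp (hcl x hx hxK y hy hyK)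
        rw [← hg, ← hk]
        exact (MulAut.conj g).orderOf_eq x }
  refine ⟨p, m, ?_⟩
  by_cases hnc : ∃ a ∈ A, ∃ x : G ⧸ K, a * x ≠ x * a
  · left
    have hq := lemQ A hAn hAab
      (by
        intro x y
        obtain ⟨x, rfl⟩ := hπs x
        obtain ⟨y, rfl⟩ := hπs y
        rw [← map_commutatorElement]
        exact ⟨_, hGG x y, rfl⟩)
      hconj
      (by
        intro z hz
        obtain ⟨z, rfl⟩ := hπs z
        refine ⟨z, hZ z ?_, rfl⟩
        intro y
        rw [hcomm]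
        exact hz _) hnc
    have hidx : N.index = p ^ m - 1 := by
      have h1 := hq.2
      rw [hm, hA, Subgroup.index_map_eq _ hπs (by rw [QuotientGroup.ker_mk']; exact hlt.le)] at h1
      exact h1
    refine { toBase := hbase, hidx := hidx, hQ1 := ?_, hcent := ?_ }
    · intro x hx hxK y hy
      apply hmemN
      rw [hcomm] at hy
      exact hq.1 _ ⟨x, hx, rfl⟩ (fun h => hxK ((hπ1 x).mp h)) _ hy
    · intro x hx hxK
      have h1 := orbit_card (⊤ : Subgroup G) x
      rw [top_inf_eq, Subgroup.card_top] at h1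
      have h2 : Nat.card {y : G // ∃ u ∈ (⊤ : Subgroup G), u * x * u⁻¹ = y} =
          Nat.card N - Nat.card K := by
        have h3 : Nat.card {y : G // ∃ u ∈ (⊤ : Subgroup G), u * x * u⁻¹ = y} =
            ((N : Set G) \ (K : Set G)).ncard := by
          rw [← Nat.card_coe_set_eq]
          apply Nat.card_congr
          apply Equiv.subtypeEquivRight
          intro y
          constructor
          · rintro ⟨u, -, rfl⟩
            refine ⟨hNn.conj_mem x hx u, ?_⟩
            intro h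
            apply hxK
            have := hK.conj_mem _ h u⁻¹
            have e : u⁻¹ * (u * x * u⁻¹) * u⁻¹⁻¹ = x := by group
            rwa [e] at this
          · rintro ⟨hy, hyK⟩
            obtain ⟨u, hu⟩ := isConj_iff.mp (hcl x hx hxK y hy hyK)
            exact ⟨u, trivial, hu⟩
        rw [h3, Set.ncard_sdiff (fun z hz => hlt.le hz) (Set.toFinite _)]
        rfl
      rw [h2] at h1
      have h4 := card_mul_relIdx K N hlt.le
      rw [hcardA] at h4
      have h5 := N.card_mul_index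
      rw [hidx] at h5
      have h6 : Nat.card N - Nat.card K = Nat.card K * (p ^ m - 1) := by
        rw [← h4, Nat.mul_sub, mul_one]
      rw [h6, ← h5, ← h4] at h1
      have h7 : 0 < Nat.card K * (p ^ m - 1) := by
        rw [← h6]
        have := card_lt_of_lt hlt
        omega
      have h8 : Nat.card K * (p ^ m - 1) * Nat.card (Subgroup.centralizer ({x} : Set G)) =
          Nat.card K * (p ^ m - 1) * p ^ m := by rw [h1]; ring
      exact Nat.eq_of_mul_eq_mul_left h7 h8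
  · right
    push Not at hnc
    -- all elements of `A` are central, so `|A| = 2`
    have hcard2 : Nat.card A = 2 := by
      have h1 : ∀ a ∈ A, a ≠ 1 → a = a1 := by
        intro a ha ha1
        obtain ⟨g, hg⟩ := isConj_iff.mp (hconj a1 a1.2 ha1' a ha ha1)
        rw [← hg, ← hnc a1 a1.2 g]; group
      have h2 : Nat.card {z : G ⧸ K | z ∈ A ∧ z ≠ 1} = 1 := by
        rw [Nat.card_eq_one_iff_unique]
        refine ⟨⟨?_⟩, ⟨⟨a1, a1.2, ha1'⟩⟩⟩
        rintro ⟨a, ha, ha'⟩ ⟨b, hb, hb'⟩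
        apply Subtype.ext
        show a = b
        rw [h1 a ha ha', h1 b hb hb']
      rw [card_nontriv] at h2
      omega
    have hpm : p = 2 ∧ m = 1 := by
      rw [hm] at hcard2
      have h1 : p ∣ 2 := by rw [← hcard2]; exact dvd_pow_self p (by omega)
      have h2 : p = 2 := (Nat.prime_dvd_prime_iff_eq hp Nat.prime_two).mp h1
      refine ⟨h2, ?_⟩
      rw [h2] at hcard2
      exact Nat.pow_right_injective (le_refl 2) (by simpa using hcard2)
    refine ⟨hbase, hpm.1, hpm.2, ?_⟩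
    intro x hx y
    rw [hcomm]
    exact hnc _ ⟨x, hx, rfl⟩ _

end Cfsg.Agent.Lib.H12Cam4
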