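import Cfsg.Agent.Lib.H12Cam4
import Cfsg.Agent.Lib.MaximalClass

set_option autoImplicit false

/-!
# Camina type configurations: derived quotient of order two (helper12)
-/

namespace Cfsg.Agent.Lib.H12Cam5

open Cfsg Cfsg.Agent.Lib.H12Cam2 Cfsg.Agent.Lib.H12Cam3 Cfsg.Agent.Lib.H12Cam4
open scoped commutatorElement

theorem index_centralizer_le {Q : Type*} [Group Q] [Finite Q] (A : Subgroup Q)
    (hcomm : ∀ a b : Q, ⁅a, b⁆ ∈ A) (c : Q) :
    (Subgroup.centralizer ({c} : Set Q)).index ≤ Nat.card A := by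
  have h1 := orbit_card (⊤ : Subgroup Q) c
  rw [top_inf_eq, Subgroup.card_top] at h1
  have h2 := (Subgroup.centralizer ({c} : Set Q)).index_mul_card
  rw [← h1] at h2
  have h3 := Nat.eq_of_mul_eq_mul_right Nat.card_pos h2
  rw [h3]
  let f : {y : Q // ∃ u ∈ (⊤ : Subgroup Q), u * c * u⁻¹ = y} → A := fun z => ⟨z.1 * c⁻¹, by
    obtain ⟨u, hu, h⟩ := z.2
    rw [← h]
    exact hcomm u c⟩
  apply Nat.card_le_card_of_injective f
  intro a b hab
  have := congrArg Subtype.val hab
  apply Subtype.ext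
  exact mul_right_cancel this

theorem index_le_four {Q : Type*} [Group Q] [Finite Q] (A : Subgroup Q) (hA : Nat.card A = 2)
    (hcomm : ∀ a b : Q, ⁅a, b⁆ ∈ A) (hcenter : ∀ z : Q, (∀ r, z * r = r * z) → z ∈ A) (c : Q)
    (hB : ∀ a b : Q, a * c = c * a → b * c = c * b → a * b = b * a) : A.index ≤ 4 := by
  have hci : ∀ t : Q, (Subgroup.centralizer ({t} : Set Q)).index ≤ 2 := fun t => by
    rw [← hA]; exact index_centralizer_le A hcomm t
  by_cases hB' : ∀ t : Q, t * c = c * t
  · have hA' : A = ⊤ := by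
      rw [Subgroup.eq_top_iff']
      intro z
      exact hcenter z (fun r => hB z r (hB' z) (hB' r))
    rw [hA', Subgroup.index_top]; norm_num
  push Not at hB'
  obtain ⟨t, ht⟩ := hB'
  have hle : Subgroup.centralizer ({c} : Set Q) ⊓ Subgroup.centralizer ({t} : Set Q) ≤ A := by
    intro z hz
    have hz1 : z * c = c * z := Subgroup.mem_centralizer_singleton_iff.mp hz.1
    have hz2 : z * t = t * z := Subgroup.mem_centralizer_singleton_iff.mp hz.2
    have h1 : Subgroup.centralizer ({c} : Set Q) < Subgroup.centralizer ({z} : Set Q) := by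
      refine lt_of_le_of_ne ?_ ?_
      · intro b hb
        rw [Subgroup.mem_centralizer_singleton_iff] at hb ⊢
        exact hB b z hb hz1
      · intro heq
        apply ht
        have : t ∈ Subgroup.centralizer ({z} : Set Q) := by
          rw [Subgroup.mem_centralizer_singleton_iff]; exact hz2.symm
        rw [← heq, Subgroup.mem_centralizer_singleton_iff] at this
        exact this
    have h2 := card_lt_of_lt h1
    have h3 := (Subgroup.centralizer ({c} : Set Q)).card_mul_index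
    have h4 := (Subgroup.centralizer ({z} : Set Q)).card_mul_index
    have h5 := hci c
    have h6 : (Subgroup.centralizer ({z} : Set Q)).index = 1 := by
      have h7 : (Subgroup.centralizer ({z} : Set Q)).index < 2 := by
        by_contra hge
        push Not at hge
        have : Nat.card Q < Nat.card Q := by
          calc Nat.card Q = Nat.card (Subgroup.centralizer ({c} : Set Q)) *
                (Subgroup.centralizer ({c} : Set Q)).index := h3.symm
            _ ≤ Nat.card (Subgroup.centralizer ({c} : Set Q)) * 2 := Nat.mul_le_mul_left _ h5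
            _ < Nat.card (Subgroup.centralizer ({z} : Set Q)) * 2 :=
                Nat.mul_lt_mul_of_pos_right h2 (by norm_num)
            _ ≤ Nat.card (Subgroup.centralizer ({z} : Set Q)) *
                (Subgroup.centralizer ({z} : Set Q)).index := Nat.mul_le_mul_left _ hge
            _ = Nat.card Q := h4
        exact lt_irrefl _ this
      have h8 : (Subgroup.centralizer ({z} : Set Q)).index ≠ 0 :=
        Subgroup.index_ne_zero_of_finite
      omega
    rw [Subgroup.index_eq_one] at h6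
    apply hcenter
    intro r
    have : r ∈ Subgroup.centralizer ({z} : Set Q) := by rw [h6]; trivial
    rw [Subgroup.mem_centralizer_singleton_iff] at this
    exact this.symm
  have h9 : A.index ∣ (Subgroup.centralizer ({c} : Set Q) ⊓
      Subgroup.centralizer ({t} : Set Q)).index := Subgroup.index_dvd_of_le hle
  have h10 := Nat.le_of_dvd (Nat.pos_of_ne_zero Subgroup.index_ne_zero_of_finite) h9
  refine h10.trans (Subgroup.index_inf_le.trans ?_)
  calc _ ≤ 2 * 2 := Nat.mul_le_mul (hci c) (hci t)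
    _ = 4 := by norm_num

/-- The key commutator argument in the 2-group `P`. -/
theorem fix_of_noncomm {P : Type*} [Group P] [Finite P] {P0 X : Subgroup P} [P0.Normal] [X.Normal]
    (hX : ∀ k ∈ P0, ∀ u : P, ⁅k, u⁆ ∈ X) {x a b c : P}
    (hac : ⁅c, a⁆ ∈ P0) (hbc : ⁅c, b⁆ ∈ P0) (hab : x⁻¹ * ⁅a, b⁆ ∈ P0) :
    x⁻¹ * (c * x * c⁻¹) ∈ X := by
  let ρ := QuotientGroup.mk' X
  have hρ1 : ∀ a : P, ρ a = 1 ↔ a ∈ X := fun a => QuotientGroup.eq_one_iff a
  have hcen : ∀ k ∈ P0, ∀ u : P, Commute (ρ k) (ρ u) := by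
    intro k hk u
    have := (hρ1 _).mpr (hX k hk u)
    rw [map_commutatorElement] at this
    exact commutatorElement_eq_one_iff_mul_comm.mp this
  have hconj : ∀ a : P, ⁅c, a⁆ ∈ P0 → ρ (c * a * c⁻¹) = ρ ⁅c, a⁆ * ρ a := by
    intro a _
    rw [← map_mul]
    congr 1
    rw [commutatorElement_def]; group
  have hw : ρ (c * ⁅a, b⁆ * c⁻¹) = ρ ⁅a, b⁆ := by
    have e : c * ⁅a, b⁆ * c⁻¹ = ⁅c * a * c⁻¹, c * b * c⁻¹⁆ := by
      rw [commutatorElement_def, commutatorElement_def]; group
    have e5 : ρ ⁅a, b⁆ = ⁅ρ a, ρ b⁆ := map_commutatorElement _ _ _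
    rw [e, map_commutatorElement, hconj a hac, hconj b hbc, e5]
    have h1 := hcen _ hac
    have h2 := hcen _ hbc
    set k1 := ρ ⁅c, a⁆
    set k2 := ρ ⁅c, b⁆
    have e1 : k1 * ρ a * (k2 * ρ b) = (k1 * k2) * (ρ a * ρ b) := by
      rw [mul_assoc, ← mul_assoc (ρ a), ← (h2 a).eq]; group
    have h12 : k1 * k2 = k2 * k1 := (hcen _ hac ⁅c, b⁆).eq
    have e2 : k2 * ρ b * (k1 * ρ a) = (k1 * k2) * (ρ b * ρ a) := by
      rw [mul_assoc, ← mul_assoc (ρ b), ← (h1 b).eq, h12]; group
    have e3 : ⁅k1 * ρ a, k2 * ρ b⁆ = (k1 * ρ a * (k2 * ρ b)) * (k2 * ρ b * (k1 * ρ a))⁻¹ := by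
      rw [commutatorElement_def]; group
    have e4 : ⁅ρ a, ρ b⁆ = (ρ a * ρ b) * (ρ b * ρ a)⁻¹ := by
      rw [commutatorElement_def]; group
    rw [e3, e4, e1, e2]
    have h3 : Commute (k1 * k2) (ρ a * ρ b * (ρ b * ρ a)⁻¹) := by
      have h4 : ∀ u : P, Commute (k1 * k2) (ρ u) := fun u => (h1 u).mul_left (h2 u)
      exact ((h4 a).mul_right (h4 b)).mul_right ((h4 b).mul_right (h4 a)).inv_right
    calc (k1 * k2) * (ρ a * ρ b) * ((k1 * k2) * (ρ b * ρ a))⁻¹
        = (k1 * k2) * (ρ a * ρ b * (ρ b * ρ a)⁻¹) * (k1 * k2)⁻¹ := by group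
      _ = _ := by rw [h3.eq]; group
  have hx : ρ x = ρ ⁅a, b⁆ * (ρ (x⁻¹ * ⁅a, b⁆))⁻¹ := by
    rw [← map_inv, ← map_mul]
    congr 1
    group
  rw [← hρ1]
  have hk := hcen _ hab c
  set k := ρ (x⁻¹ * ⁅a, b⁆)
  have h5 : ρ c * ρ ⁅a, b⁆ * (ρ c)⁻¹ = ρ ⁅a, b⁆ := by
    rw [← map_inv, ← map_mul, ← map_mul, hw]
  have h6 : ρ c * ρ x * (ρ c)⁻¹ = ρ x := by
    rw [hx]
    calc ρ c * (ρ ⁅a, b⁆ * k⁻¹) * (ρ c)⁻¹ = (ρ c * ρ ⁅a, b⁆ * (ρ c)⁻¹) * (ρ c * k⁻¹ * (ρ c)⁻¹) := by
          group
      _ = ρ ⁅a, b⁆ * k⁻¹ := by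
          rw [h5, ← (hk.inv_left).eq]; group
  rw [map_mul, map_mul, map_mul, map_inv, map_inv, h6, inv_mul_cancel]

/-- The centralizer order. -/
theorem card_centralizer {G : Type*} [Group G] [Finite G] {K N : Subgroup G} (hK : K.Normal)
    (hN : N.Normal) (hKN : K ≤ N)
    (hcl : ∀ x ∈ N, x ∉ K → ∀ y ∈ N, y ∉ K → IsConj x y) {x : G} (hx : x ∈ N) (hxK : x ∉ K) :
    (Nat.card N - Nat.card K) * Nat.card (Subgroup.centralizer ({x} : Set G)) = Nat.card G := by
  have h1 := orbit_card (⊤ : Subgroup G) x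
  rw [top_inf_eq, Subgroup.card_top] at h1
  rw [← h1]
  congr 1
  have h3 : Nat.card {y : G // ∃ u ∈ (⊤ : Subgroup G), u * x * u⁻¹ = y} =
      ((N : Set G) \ (K : Set G)).ncard := by
    rw [← Nat.card_coe_set_eq]
    apply Nat.card_congr
    apply Equiv.subtypeEquivRight
    intro y
    constructor
    · rintro ⟨u, -, rfl⟩
      refine ⟨hN.conj_mem x hx u, ?_⟩
      intro h
      apply hxK
      have := hK.conj_mem _ h u⁻¹
      have e : u⁻¹ * (u * x * u⁻¹) * u⁻¹⁻¹ = x := by group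
      rwa [e] at this
    · rintro ⟨hy, hyK⟩
      obtain ⟨u, hu⟩ := isConj_iff.mp (hcl x hx hxK y hy hyK)
      exact ⟨u, trivial, hu⟩
  rw [h3, Set.ncard_sdiff (fun z hz => hKN hz) (Set.toFinite _)]
  rfl

set_option maxHeartbeats 1600000 in
theorem sylow_cyclic {G : Type*} [Group G] [Finite G] {K : Subgroup G}
    (hb : Base K (commutator G) 2 1)
    (hcen : ∀ x ∈ commutator G, ∀ y : G, ⁅x, y⁆ ∈ K)
    (hcl : ∀ x ∈ commutator G, x ∉ K → ∀ y ∈ commutator G, y ∉ K → IsConj x y)
    (hZ : ∀ z : G, (∀ y : G, ⁅z, y⁆ ∈ K) → z ∈ commutator G) (S : Sylow 2 K) : IsCyclic S := by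
  classical
  have hf2 : Fact (Nat.Prime 2) := ⟨Nat.prime_two⟩
  have hKn := hb.hK
  have hNn := hb.hN
  set N := commutator G with hNdef
  have hKN : K ≤ N := hb.hKN
  have hSp : IsPGroup 2 ((S : Subgroup K).map K.subtype) := S.isPGroup'.map _
  obtain ⟨P, hSP⟩ := hSp.exists_le_sylow
  let π := QuotientGroup.mk' K
  have hπs : Function.Surjective π := QuotientGroup.mk'_surjective K
  have hπ1 : ∀ a : G, π a = 1 ↔ a ∈ K := fun a => QuotientGroup.eq_one_iff a
  have hcomm : ∀ a b : G, ⁅a, b⁆ ∈ K ↔ π a * π b = π b * π a := by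
    intro a b
    rw [← hπ1, map_commutatorElement, commutatorElement_eq_one_iff_mul_comm]
  have hrel : K.relIndex N = 2 := by rw [hb.hrel]; norm_num
  have hNK : ¬ N ≤ K := by
    intro h
    rw [Subgroup.relIndex_eq_one.mpr h] at hrel
    omega
  obtain ⟨x1, hx1, hx1K⟩ : ∃ x ∈ N, x ∉ K := by
    by_contra h
    push Not at h
    exact hNK h
  have htwo : ∀ a ∈ N, a ∉ K → ∀ b ∈ N, b ∉ K → a⁻¹ * b ∈ K := by
    intro a ha haK b hb' hbK
    have h1 : (K.subgroupOf N).index = 2 := hrel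
    have h2 := Subgroup.mul_mem_iff_of_index_two h1 (a := (⟨a, ha⟩ : N)⁻¹) (b := ⟨b, hb'⟩)
    rw [Subgroup.mem_subgroupOf] at h2
    apply h2.mpr
    rw [inv_mem_iff, Subgroup.mem_subgroupOf, Subgroup.mem_subgroupOf]
    exact ⟨fun h => absurd h haK, fun h => absurd h hbK⟩
  have hsq : ∀ g : G, g ^ 2 ∈ N := by
    intro g
    apply hZ
    intro y
    rw [hcomm, map_pow]
    have h1 : ⁅g, y⁆ ∈ N := hb.hGG g y
    set a := π ⁅g, y⁆ with ha
    have h2 : a * a = 1 := by
      have := hb.hpow _ h1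
      rw [← hπ1, map_pow, pow_two] at this
      exact this
    have h3 : ∀ z : G, a * π z = π z * a := fun z => (hcomm _ _).mp (hcen _ h1 z)
    have h4 : π g * π y = a * (π y * π g) := by
      rw [ha, ← map_mul, ← map_mul, ← map_mul]
      congr 1
      rw [commutatorElement_def]; group
    calc π g ^ 2 * π y = π g * (π g * π y) := by rw [pow_two, mul_assoc]
      _ = π g * (a * (π y * π g)) := by rw [h4]
      _ = a * (π g * π y) * π g := by rw [← mul_assoc, ← h3 g]; group
      _ = a * a * (π y * π g) * π g := by rw [h4]; group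
      _ = π y * π g ^ 2 := by rw [h2, one_mul, pow_two, mul_assoc]
  have hGK : IsPGroup 2 (G ⧸ K) := by
    intro q
    obtain ⟨g, rfl⟩ := hπs q
    refine ⟨2, ?_⟩
    rw [← map_pow, hπ1]
    have : g ^ 2 ^ 2 = (g ^ 2) ^ 2 := by rw [← pow_mul]; norm_num
    rw [this]
    exact hb.hpow _ (hsq g)
  have hlift : ∀ g : G, ∃ u ∈ (P : Subgroup G), π u = π g := by
    intro g
    have h1 : (⊤ : Subgroup (G ⧸ K)) = (P.mapSurjective hπs : Sylow 2 (G ⧸ K)) :=
      (P.mapSurjective hπs).is_maximal' (hGK.to_subgroup ⊤) le_top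
    have h2 : π g ∈ (⊤ : Subgroup (G ⧸ K)) := trivial
    rw [h1] at h2
    obtain ⟨u, hu, h⟩ := h2
    exact ⟨u, hu, h⟩
  have hPK : (P : Subgroup G) ⊔ K = ⊤ := by
    rw [Subgroup.eq_top_iff']
    intro g
    obtain ⟨u, hu, h⟩ := hlift g
    have h2 : u⁻¹ * g ∈ K := by rw [← hπ1, map_mul, map_inv, h, inv_mul_cancel]
    have : g = u * (u⁻¹ * g) := by group
    rw [this]
    exact Subgroup.mul_mem_sup hu h2
  have hrelP : K.relIndex P = K.index := by
    rw [← Subgroup.relIndex_sup_right (P : Subgroup G) K, hPK, Subgroup.relIndex_top_right]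
  have hcardP : Nat.card ((P : Subgroup G) ⊓ K : Subgroup G) * K.index = Nat.card P := by
    have h1 := card_mul_relIdx ((P : Subgroup G) ⊓ K) P inf_le_left
    rw [inf_comm, Subgroup.inf_relIndex_right, hrelP, inf_comm] at h1
    exact h1
  -- an element of `P ∩ N` outside `K`
  obtain ⟨x, hxP, hx⟩ := hlift x1
  have hxx1 : x1⁻¹ * x ∈ K := by rw [← hπ1, map_mul, map_inv, hx, inv_mul_cancel]
  have hxN : x ∈ N := by
    have := mul_mem hx1 (hKN hxx1)
    simpa using this
  have hxK : x ∉ K := by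
    intro h
    apply hx1K
    have := mul_mem h (inv_mem hxx1)
    have e : x * (x1⁻¹ * x)⁻¹ = x1 := by group
    rwa [e] at this
  have hCx : Nat.card (Subgroup.centralizer ({x} : Set G)) = K.index := by
    have h1 := card_centralizer hKn hNn hKN hcl hxN hxK
    have h2 := card_mul_relIdx K N hKN
    rw [hrel] at h2
    have h3 : Nat.card N - Nat.card K = Nat.card K := by omega
    rw [h3, ← K.card_mul_index] at h1
    exact Nat.eq_of_mul_eq_mul_left Nat.card_pos h1
  obtain ⟨hco, -⟩ := conj_coset (T := (P : Subgroup G)) (T0 := (P : Subgroup G) ⊓ K) (x := x)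
    (by
      intro t ht
      refine Subgroup.mem_inf.mpr ⟨mul_mem (inv_mem hxP) (mul_mem (mul_mem ht hxP) (inv_mem ht)), ?_⟩
      have h1 : ⁅x⁻¹, t⁆ ∈ K := hcen _ (inv_mem hxN) t
      rw [commutatorElement_def, inv_inv] at h1
      have e : x⁻¹ * (t * x * t⁻¹) = x⁻¹ * t * x * t⁻¹ := by group
      rw [e]; exact h1)
    (by
      rw [← hcardP, mul_comm]
      apply Nat.mul_le_mul_left
      rw [← hCx]
      exact Subgroup.card_le_of_le inf_le_right)
  by_cases hP0 : (P : Subgroup G) ⊓ K = ⊥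
  · have h1 : (S : Subgroup K).map K.subtype = ⊥ := by
      rw [eq_bot_iff, ← hP0]
      exact le_inf hSP (Subgroup.map_subtype_le _)
    have h2 : (S : Subgroup K) = ⊥ := by
      rwa [Subgroup.map_eq_bot_iff_of_injective _ K.subtype_injective] at h1
    have : Subsingleton (S : Subgroup K) := by
      rw [h2]; infer_instance
    infer_instance
  -- now the index of `N` is four
  have hAcard : Nat.card (N.map π) = 2 := by
    have h1 : (K.map π) = ⊥ := by
      rw [Subgroup.map_eq_bot_iff, QuotientGroup.ker_mk']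
    have h2 : (K.map π).relIndex (N.map π) = K.relIndex N := by
      rw [Subgroup.relIndex_map_map, QuotientGroup.ker_mk', sup_idem, sup_eq_left.mpr hKN]
    rw [h1, Subgroup.relIndex_bot_left, hrel] at h2
    exact h2
  have hAidx : (N.map π).index = N.index :=
    Subgroup.index_map_eq _ hπs (by rw [QuotientGroup.ker_mk']; exact hKN)
  have hAcomm : ∀ a b : G ⧸ K, ⁅a, b⁆ ∈ N.map π := by
    intro a b
    obtain ⟨a, rfl⟩ := hπs a
    obtain ⟨b, rfl⟩ := hπs b
    rw [← map_commutatorElement]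
    exact ⟨_, hb.hGG a b, rfl⟩
  have hAcenter : ∀ z : G ⧸ K, (∀ r, z * r = r * z) → z ∈ N.map π := by
    intro z hz
    obtain ⟨z, rfl⟩ := hπs z
    refine ⟨z, hZ z ?_, rfl⟩
    intro y
    rw [hcomm]
    exact hz _
  have hAcen : ∀ a ∈ N.map π, ∀ r : G ⧸ K, a * r = r * a := by
    rintro _ ⟨a, ha, rfl⟩ r
    obtain ⟨r, rfl⟩ := hπs r
    exact (hcomm _ _).mp (hcen a ha r)
  have hle4 : N.index ≤ 4 := by
    set P0 : Subgroup P := K.subgroupOf P with hP0def
    have hP0n : P0.Normal := hKn.subgroupOf P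
    set X : Subgroup P := ⁅P0, (⊤ : Subgroup P)⁆ with hXdef
    have hXn : X.Normal := Subgroup.commutator_normal _ _
    have hP0ne : P0 ≠ ⊥ := by
      intro h
      apply hP0
      rw [eq_bot_iff]
      intro k hk
      have h1 : (⟨k, hk.1⟩ : P) ∈ P0 := by
        rw [hP0def, Subgroup.mem_subgroupOf]; exact hk.2
      rw [h, Subgroup.mem_bot] at h1
      rw [Subgroup.mem_bot]
      exact congrArg Subtype.val h1
    have hXlt : X < P0 := CoprimeAction2.commutator_lt_of_pgroup (p := 2)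
      (P.isPGroup'.to_subgroup ⊤) (P.isPGroup'.to_subgroup P0)
      (by rw [Subgroup.normalizer_eq_top_iff.mpr hP0n]) hP0ne
    obtain ⟨k, hk, hkX⟩ := SetLike.exists_of_lt hXlt
    obtain ⟨t, ht, htk⟩ := hco k (Subgroup.mem_inf.mpr ⟨k.2, hk⟩)
    rw [← hAidx]
    apply index_le_four _ hAcard hAcomm hAcenter (π t)
    intro a b ha hb'
    obtain ⟨a0, rfl⟩ := hπs a
    obtain ⟨b0, rfl⟩ := hπs b
    obtain ⟨u, hu, hua⟩ := hlift a0
    obtain ⟨v, hv, hvb⟩ := hlift b0
    rw [← hua] at ha ⊢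
    rw [← hvb] at hb' ⊢
    by_contra hne
    have h1 : ⁅u, v⁆ ∉ K := fun h => hne ((hcomm u v).mp h)
    have h2 := htwo x hxN hxK ⁅u, v⁆ (hb.hGG u v) h1
    have h3 := fix_of_noncomm (P := P) (P0 := P0) (X := X)
      (fun k hk w => Subgroup.commutator_mem_commutator hk (Subgroup.mem_top w))
      (x := ⟨x, hxP⟩) (a := ⟨u, hu⟩) (b := ⟨v, hv⟩) (c := ⟨t, ht⟩)
      (by
        rw [hP0def, Subgroup.mem_subgroupOf]
        exact (hcomm t u).mpr ha.symm)
      (by
        rw [hP0def, Subgroup.mem_subgroupOf]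
        exact (hcomm t v).mpr hb'.symm)
      (by
        rw [hP0def, Subgroup.mem_subgroupOf]
        exact h2)
    apply hkX
    have h4 : (⟨x, hxP⟩ : P)⁻¹ * ((⟨t, ht⟩ : P) * ⟨x, hxP⟩ * (⟨t, ht⟩ : P)⁻¹) = k := by
      apply Subtype.ext
      show x⁻¹ * (t * x * t⁻¹) = (k : G)
      rw [htk]; group
    rwa [h4] at h3
  have hne1 : N.index ≠ 1 := by
    intro h
    rw [Subgroup.index_eq_one] at h
    apply hNK
    rw [hNdef, commutator_def, Subgroup.commutator_le]
    intro a _ b _
    exact hcen a (h ▸ Subgroup.mem_top a) b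
  have hne2 : N.index ≠ 2 := by
    intro h
    obtain ⟨g, hg⟩ : ∃ g : G, g ∉ N := by
      by_contra hcon
      push Not at hcon
      exact hne1 (Subgroup.index_eq_one.mpr ((Subgroup.eq_top_iff' N).mpr hcon))
    apply hg
    apply hZ
    intro y
    rw [hcomm]
    have h1 : N.map π < Subgroup.centralizer ({π g} : Set (G ⧸ K)) := by
      refine lt_of_le_of_ne ?_ ?_
      · intro a ha
        rw [Subgroup.mem_centralizer_singleton_iff]
        exact hAcen a ha _
      · intro heq
        have h2 : π g ∈ N.map π := by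
          rw [heq, Subgroup.mem_centralizer_singleton_iff]
        obtain ⟨n, hn, hn2⟩ := h2
        have h4 : n⁻¹ * g ∈ K := by rw [← hπ1, map_mul, map_inv, hn2, inv_mul_cancel]
        apply hg
        have := mul_mem hn (hKN h4)
        simpa using this
    have h2 := card_lt_of_lt h1
    have h3 := (N.map π).card_mul_index
    rw [hAidx, h] at h3
    have h4 := (Subgroup.centralizer ({π g} : Set (G ⧸ K))).card_mul_index
    have h5 : (Subgroup.centralizer ({π g} : Set (G ⧸ K))).index = 1 := by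
      have h7 : (Subgroup.centralizer ({π g} : Set (G ⧸ K))).index < 2 := by
        by_contra hge
        push Not at hge
        have : Nat.card (G ⧸ K) < Nat.card (G ⧸ K) := by
          calc Nat.card (G ⧸ K) = Nat.card (N.map π) * 2 := h3.symm
            _ < Nat.card (Subgroup.centralizer ({π g} : Set (G ⧸ K))) * 2 :=
                Nat.mul_lt_mul_of_pos_right h2 (by norm_num)
            _ ≤ _ := Nat.mul_le_mul_left _ hge
            _ = _ := h4
        exact lt_irrefl _ this
      have h8 : (Subgroup.centralizer ({π g} : Set (G ⧸ K))).index ≠ 0 :=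
        Subgroup.index_ne_zero_of_finite
      omega
    rw [Subgroup.index_eq_one] at h5
    have : π y ∈ Subgroup.centralizer ({π g} : Set (G ⧸ K)) := by rw [h5]; trivial
    rw [Subgroup.mem_centralizer_singleton_iff] at this
    exact this.symm
  have h4 : N.index = 4 := by
    obtain ⟨j, hj⟩ := IsPGroup.iff_card.mp hGK
    have h1 : N.index ∣ 2 ^ j := by
      rw [← hj]
      exact Subgroup.index_dvd_of_le hKN
    obtain ⟨i, -, hi⟩ := (Nat.dvd_prime_pow Nat.prime_two).mp h1
    rw [hi] at hne1 hne2 hle4 ⊢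
    have : i ≤ 2 := by
      by_contra h
      push Not at h
      have : 2 ^ 3 ≤ 2 ^ i := Nat.pow_le_pow_right (by norm_num) h
      omega
    have hi2 : i = 2 := by
      by_contra hne
      have h5 : i = 0 ∨ i = 1 := by omega
      rcases h5 with h5 | h5
      · exact hne1 (by rw [h5]; norm_num)
      · exact hne2 (by rw [h5]; norm_num)
    rw [hi2]; norm_num
  -- the commutator subgroup of `P`
  have hNKP : ∃ u ∈ (P : Subgroup G), ∃ v ∈ (P : Subgroup G), ⁅u, v⁆ ∉ K := by
    by_contra hcon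
    push Not at hcon
    apply hNK
    rw [hNdef, commutator_def, Subgroup.commutator_le]
    intro a _ b _
    obtain ⟨u, hu, hua⟩ := hlift a
    obtain ⟨v, hv, hvb⟩ := hlift b
    rw [hcomm, ← hua, ← hvb, ← hcomm]
    exact hcon u hu v hv
  have hPder : commutator P = N.subgroupOf P := by
    apply le_antisymm
    · rw [commutator_def, Subgroup.commutator_le]
      intro a _ b _
      rw [Subgroup.mem_subgroupOf]
      exact hb.hGG a b
    · have hKP : ∀ z : P, (z : G) ∈ K → z ∈ commutator P := by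
        intro z hz
        obtain ⟨t, ht, htk⟩ := hco z (Subgroup.mem_inf.mpr ⟨z.2, hz⟩)
        have e : z = ⁅(⟨x, hxP⟩ : P)⁻¹, ⟨t, ht⟩⁆ := by
          apply Subtype.ext
          show (z : G) = ⁅x⁻¹, t⁆
          rw [commutatorElement_def, inv_inv]
          have : x⁻¹ * t * x * t⁻¹ = x⁻¹ * (t * x * t⁻¹) := by group
          rw [this, htk]; group
        rw [e]
        exact Subgroup.commutator_mem_commutator (Subgroup.mem_top _) (Subgroup.mem_top _)
      intro z hz
      rw [Subgroup.mem_subgroupOf] at hz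
      by_cases hzK : (z : G) ∈ K
      · exact hKP z hzK
      · obtain ⟨u, hu, v, hv, huv⟩ := hNKP
        have h1 := htwo z hz hzK ⁅u, v⁆ (hb.hGG u v) huv
        have h2 : z⁻¹ * ⁅(⟨u, hu⟩ : P), ⟨v, hv⟩⁆ ∈ commutator P := hKP _ h1
        have h3 : ⁅(⟨u, hu⟩ : P), ⟨v, hv⟩⁆ ∈ commutator P :=
          Subgroup.commutator_mem_commutator (Subgroup.mem_top _) (Subgroup.mem_top _)
        have h4 := mul_mem h3 (inv_mem h2)
        have e : ⁅(⟨u, hu⟩ : P), ⟨v, hv⟩⁆ * (z⁻¹ * ⁅(⟨u, hu⟩ : P), ⟨v, hv⟩⁆)⁻¹ = z := by group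
        rwa [e] at h4
  have hPidx : (commutator P).index = 4 := by
    rw [hPder]
    show N.relIndex P = 4
    have h1 : (P : Subgroup G) ⊔ N = ⊤ := by
      rw [eq_top_iff, ← hPK]
      exact sup_le_sup le_rfl hKN
    rw [← Subgroup.relIndex_sup_right (P : Subgroup G) N, h1, Subgroup.relIndex_top_right, h4]
  obtain ⟨n, hn⟩ := IsPGroup.iff_card.mp P.isPGroup'
  have hn3 : 3 ≤ n := by
    have h1 := (commutator P).card_mul_index
    rw [hPidx, hn] at h1
    have h2 : 1 < Nat.card (commutator P) := by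
      rw [Subgroup.one_lt_card_iff_ne_bot]
      intro h
      have h3 : (⟨x, hxP⟩ : P) ∈ commutator P := by
        rw [hPder, Subgroup.mem_subgroupOf]; exact hxN
      rw [h, Subgroup.mem_bot] at h3
      apply hxK
      have : x = 1 := congrArg Subtype.val h3
      rw [this]; exact one_mem _
    by_contra h
    push Not at h
    have : 2 ^ n ≤ 2 ^ 2 := Nat.pow_le_pow_right (by norm_num) (by omega)
    omega
  obtain ⟨c, hc⟩ := MaximalClass.exists_orderOf n P hn3 hn hPidx
  have hzc : (Subgroup.zpowers c).index = 2 := by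
    have h1 := (Subgroup.zpowers c).card_mul_index
    rw [Nat.card_zpowers, hc, hn] at h1
    have h2 : 2 ^ n = 2 ^ (n - 1) * 2 := by
      rw [← pow_succ]; congr 1; omega
    rw [h2] at h1
    exact Nat.eq_of_mul_eq_mul_left (by positivity) h1
  have hzn : (Subgroup.zpowers c).Normal := Subgroup.normal_of_index_eq_two hzc
  have hcz : commutator P ≤ Subgroup.zpowers c := by
    rw [commutator_def, Subgroup.commutator_le]
    intro a _ b _
    have h1 : Nat.card (P ⧸ Subgroup.zpowers c) = 2 := hzc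
    have h2 : IsCyclic (P ⧸ Subgroup.zpowers c) := isCyclic_of_prime_card h1
    let cg : CommGroup (P ⧸ Subgroup.zpowers c) := IsCyclic.commGroup
    rw [← QuotientGroup.eq_one_iff]
    have h3 : ((⁅a, b⁆ : P) : P ⧸ Subgroup.zpowers c) =
        ⁅(a : P ⧸ Subgroup.zpowers c), (b : P ⧸ Subgroup.zpowers c)⁆ := rfl
    rw [h3, commutatorElement_eq_one_iff_mul_comm]
    exact cg.mul_comm _ _
  have hcyc : IsCyclic (K.subgroupOf P) := by
    have h1 : K.subgroupOf P ≤ Subgroup.zpowers c := by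
      refine le_trans ?_ hcz
      rw [hPder]
      intro z hz
      rw [Subgroup.mem_subgroupOf] at hz ⊢
      exact hKN hz
    exact Subgroup.isCyclic_of_le h1
  let f : (S : Subgroup K) →* K.subgroupOf P :=
    { toFun := fun s => ⟨⟨(s : K), hSP ⟨s, s.2, rfl⟩⟩, by
        rw [Subgroup.mem_subgroupOf]; exact (s : K).2⟩
      map_one' := rfl
      map_mul' := fun _ _ => rfl }
  apply isCyclic_of_injective f
  intro a b hab
  apply Subtype.ext
  apply Subtype.ext
  exact congrArg (fun z : K.subgroupOf P => ((z : P) : G)) hab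

end Cfsg.Agent.Lib.H12Cam5
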