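import Cfsg.Agent.Lib.H12Cam4
import Cfsg.Agent.Lib.H31PGroup
import Cfsg.Agent.Lib.H32MinAct

set_option autoImplicit false

/-!
# Camina type configurations: the main case (helper12)
-/

namespace Cfsg.Agent.Lib.H12Cam6

open Cfsg Cfsg.Agent.Lib.H12Cam2 Cfsg.Agent.Lib.H12Cam3 Cfsg.Agent.Lib.H12Cam4
open scoped commutatorElement

theorem mem_sup_zp {G : Type*} [Group G] {D : Subgroup G} {x : G}
    (hc : ∀ d ∈ D, d * x = x * d) {y : G} (hy : y ∈ D ⊔ Subgroup.zpowers x) :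
    ∃ d ∈ D, ∃ i : ℤ, y = d * x ^ i := by
  let E : Subgroup G :=
    { carrier := {y | ∃ d ∈ D, ∃ i : ℤ, y = d * x ^ i}
      one_mem' := ⟨1, one_mem _, 0, by simp⟩
      mul_mem' := by
        rintro _ _ ⟨d, hd, i, rfl⟩ ⟨e, he, j, rfl⟩
        refine ⟨d * e, mul_mem hd he, i + j, ?_⟩
        have h1 : Commute e (x ^ i) := (show Commute e x from hc e he).zpow_right i
        rw [zpow_add, mul_assoc, ← mul_assoc (x ^ i), ← h1.eq]
        group
      inv_mem' := by
        rintro _ ⟨d, hd, i, rfl⟩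
        refine ⟨d⁻¹, inv_mem hd, -i, ?_⟩
        have h1 : Commute d⁻¹ (x ^ (-i)) := (show Commute d⁻¹ x from hc _ (inv_mem hd)).zpow_right _
        rw [mul_inv_rev, ← zpow_neg, h1.eq] }
  have h1 : D ⊔ Subgroup.zpowers x ≤ E := by
    refine sup_le (fun d hd => ⟨d, hd, 0, by simp⟩) ?_
    rw [Subgroup.zpowers_le]
    exact ⟨1, one_mem _, 1, by simp⟩
  exact h1 hy

theorem card_sup_zp {G : Type*} [Group G] [Finite G] {D : Subgroup G} {x : G} {p : ℕ} (hp : 0 < p)
    (hc : ∀ d ∈ D, d * x = x * d) (hx : x ^ p ∈ D) :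
    Nat.card (D ⊔ Subgroup.zpowers x : Subgroup G) ≤ p * Nat.card D := by
  let f : Fin p × D → (D ⊔ Subgroup.zpowers x : Subgroup G) := fun z =>
    ⟨z.2 * x ^ (z.1 : ℕ), mul_mem (Subgroup.mem_sup_left z.2.2)
      (Subgroup.mem_sup_right (Subgroup.npow_mem_zpowers x z.1))⟩
  have hf : Function.Surjective f := by
    rintro ⟨y, hy⟩
    obtain ⟨d, hd, i, rfl⟩ := mem_sup_zp hc hy
    have hp' : (0 : ℤ) < p := by exact_mod_cast hp
    have h1 := Int.emod_nonneg i hp'.ne'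
    have h2 := Int.emod_lt_of_pos i hp'
    refine ⟨(⟨(i % p).toNat, by omega⟩, ⟨d * (x ^ p) ^ (i / p), mul_mem hd (zpow_mem hx _)⟩), ?_⟩
    apply Subtype.ext
    show d * (x ^ p) ^ (i / p) * x ^ ((i % p).toNat) = d * x ^ i
    rw [mul_assoc]
    congr 1
    rw [← zpow_natCast x p, ← zpow_natCast x ((i % p).toNat), ← zpow_mul, ← zpow_add,
      Int.toNat_of_nonneg h1, Int.mul_ediv_add_emod]
  have h := Nat.card_le_card_of_surjective f hf
  rwa [Nat.card_prod, Nat.card_fin] at h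

theorem mul_card_le {G : Type*} [Group G] [Finite G] {D E : Subgroup G} {p : ℕ} [hp : Fact p.Prime]
    (h : D < E) (hE : IsPGroup p E) : p * Nat.card D ≤ Nat.card E := by
  obtain ⟨k, hk⟩ := IsPGroup.iff_card.mp hE
  obtain ⟨j, hj⟩ := IsPGroup.iff_card.mp (hE.to_le h.le)
  have h1 := card_lt_of_lt h
  rw [hk, hj] at h1 ⊢
  have h2 := (Nat.pow_lt_pow_iff_right hp.out.one_lt).mp h1
  rw [← pow_succ']
  exact Nat.pow_le_pow_right hp.out.pos h2

variable {G : Type*} [Group G] [Finite G] {K N : Subgroup G} {p m : ℕ}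

theorem lemT (h : Cfg K N p m) {T : Subgroup G} (hTN : T ≤ N) (hKT : N ≤ T ⊔ K) {x : G}
    (hx : x ∈ T) (hxK : x ∉ K) :
    (∀ k ∈ T ⊓ K, ∃ t ∈ T, t * x * t⁻¹ = x * k) ∧ Subgroup.centralizer ({x} : Set G) ≤ T := by
  have hKn := h.hK
  have hsup : T ⊔ K = N := le_antisymm (sup_le hTN h.hKN) hKT
  have hrel : K.relIndex T = p ^ m := by
    rw [← Subgroup.relIndex_sup_right T K, hsup, h.hrel]
  have hcard : Nat.card (T ⊓ K : Subgroup G) * p ^ m = Nat.card T := by
    have h1 := card_mul_relIdx (T ⊓ K) T inf_le_left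
    rw [inf_comm, Subgroup.inf_relIndex_right, hrel, inf_comm] at h1
    exact h1
  have hC := h.hcent x (hTN hx) hxK
  obtain ⟨h1, h2⟩ := conj_coset (T := T) (T0 := T ⊓ K) (x := x)
    (by
      intro t ht
      refine Subgroup.mem_inf.mpr ⟨mul_mem (inv_mem hx) (mul_mem (mul_mem ht hx) (inv_mem ht)), ?_⟩
      have h1 : ⁅x⁻¹, t⁆ ∈ K := h.hNN _ (inv_mem (hTN hx)) t (hTN ht)
      rw [commutatorElement_def, inv_inv] at h1
      have e : x⁻¹ * (t * x * t⁻¹) = x⁻¹ * t * x * t⁻¹ := by group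
      rw [e]; exact h1)
    (by
      rw [← hcard, mul_comm]
      apply Nat.mul_le_mul_left
      rw [← hC]
      exact Subgroup.card_le_of_le inf_le_right)
  refine ⟨h1, ?_⟩
  rw [← hcard, mul_comm] at h2
  have h3 := Nat.eq_of_mul_eq_mul_left Nat.card_pos h2
  have h4 : T ⊓ Subgroup.centralizer ({x} : Set G) = Subgroup.centralizer ({x} : Set G) :=
    Subgroup.eq_of_le_of_card_ge inf_le_right (by rw [h3, hC])
  rw [← h4]
  exact inf_le_left

theorem not_le (h : Cfg K N p m) : ¬ N ≤ K := by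
  intro h1
  have h2 := h.hrel
  rw [Subgroup.relIndex_eq_one.mpr h1] at h2
  have h3 : 2 ≤ p ^ m := by
    calc 2 ≤ p := h.hp.two_le
      _ = p ^ 1 := (pow_one p).symm
      _ ≤ p ^ m := Nat.pow_le_pow_right h.hp.pos h.hm
  omega

theorem exists_mem (h : Cfg K N p m) {T : Subgroup G} (hKT : N ≤ T ⊔ K) : ∃ x ∈ T, x ∉ K := by
  by_contra hcon
  push Not at hcon
  exact not_le h (hKT.trans (sup_le hcon le_rfl))

theorem selfnorm (h : Cfg K N p m) {T : Subgroup G} (hTN : T ≤ N) (hKT : N ≤ T ⊔ K) {y : G}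
    (hy : y ∈ N) (hyT : y ∈ Subgroup.normalizer (T : Set G)) : y ∈ T := by
  obtain ⟨x, hx, hxK⟩ := exists_mem h hKT
  obtain ⟨h1, h2⟩ := lemT h hTN hKT hx hxK
  have h3 : y * x * y⁻¹ ∈ T := (Subgroup.mem_normalizer_iff.mp hyT x).mp hx
  have h4 : x⁻¹ * (y * x * y⁻¹) ∈ T ⊓ K := by
    refine Subgroup.mem_inf.mpr ⟨mul_mem (inv_mem hx) h3, ?_⟩
    have h1 : ⁅x⁻¹, y⁆ ∈ K := h.hNN _ (inv_mem (hTN hx)) y hy
    rw [commutatorElement_def, inv_inv] at h1
    have e : x⁻¹ * (y * x * y⁻¹) = x⁻¹ * y * x * y⁻¹ := by group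
    rw [e]; exact h1
  obtain ⟨t, ht, h5⟩ := h1 _ h4
  have h6 : t * x * t⁻¹ = y * x * y⁻¹ := by rw [h5]; group
  have h7 : t⁻¹ * y ∈ Subgroup.centralizer ({x} : Set G) := by
    rw [Subgroup.mem_centralizer_singleton_iff]
    calc t⁻¹ * y * x = t⁻¹ * (y * x * y⁻¹) * y := by group
      _ = t⁻¹ * (t * x * t⁻¹) * y := by rw [h6]
      _ = _ := by group
  have := mul_mem ht (h2 h7)
  simpa using this

theorem pgroup_le (h : Cfg K N p m) {P : Subgroup G} (hP : IsPGroup p P) : P ≤ N := by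
  intro x hx
  have hN := h.hN
  obtain ⟨k, hk⟩ := hP ⟨x, hx⟩
  have hk' : x ^ p ^ k = 1 := congrArg Subtype.val hk
  have h1 : x ^ N.index ∈ N := Subgroup.pow_index_mem N x
  rw [h.hidx] at h1
  have hcop : Nat.Coprime (p ^ k) (p ^ m - 1) := by
    apply Nat.Coprime.pow_left
    rw [Nat.Prime.coprime_iff_not_dvd h.hp]
    intro hd
    have h2 : p ∣ p ^ m := dvd_pow_self p (by have := h.hm; omega)
    have h3 : 1 ≤ p ^ m := Nat.one_le_pow _ _ h.hp.pos
    have h4 : p ∣ 1 := by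
      have := Nat.dvd_sub h2 hd
      rwa [show p ^ m - (p ^ m - 1) = 1 by omega] at this
    exact h.hp.one_lt.ne' (Nat.dvd_one.mp h4)
  obtain ⟨u, v, huv⟩ := Nat.isCoprime_iff_coprime.mpr hcop
  have h2 : x = (x ^ p ^ k) ^ u * (x ^ (p ^ m - 1)) ^ v := by
    rw [← zpow_natCast x (p ^ k), ← zpow_natCast x (p ^ m - 1), ← zpow_mul, ← zpow_mul,
      ← zpow_add, mul_comm ((p ^ k : ℕ) : ℤ) u, mul_comm ((p ^ m - 1 : ℕ) : ℤ) v, huv, zpow_one]
  rw [h2, hk', one_zpow, one_mul]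
  exact zpow_mem h1 v

/-- The Sylow subgroup has class two. -/
theorem sylow_central (h : Cfg K N p m) (P : Sylow p G) (hKP : N ≤ (P : Subgroup G) ⊔ K) :
    ∀ k ∈ (P : Subgroup G) ⊓ K, ∀ u ∈ (P : Subgroup G), Commute k u := by
  have hfp : Fact p.Prime := ⟨h.hp⟩
  have hKn := h.hK
  have hNn := h.hN
  have hPN : (P : Subgroup G) ≤ N := pgroup_le h P.isPGroup'
  set L : Subgroup G := Subgroup.normalizer ((P : Subgroup G) : Set G) with hL
  have hPL : (P : Subgroup G) ≤ L := Subgroup.le_normalizer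
  have hNL : N ⊓ L = (P : Subgroup G) := by
    apply le_antisymm
    · intro y hy
      exact selfnorm h hPN hKP hy.1 hy.2
    · exact le_inf hPN hPL
  have hFr : L ⊔ N = ⊤ := Sylow.normalizer_sup_eq_top' P hPN
  have key := s2 (L := L) (p := p) (m := m) (P := (P : Subgroup G).subgroupOf L)
    (K0 := ((P : Subgroup G) ⊓ K).subgroupOf L)
    Subgroup.normal_in_normalizer
    (by
      constructor
      intro k hk l
      rw [Subgroup.mem_subgroupOf, Subgroup.mem_inf] at hk ⊢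
      exact ⟨(Subgroup.mem_normalizer_iff.mp l.2 k).mp hk.1, hKn.conj_mem _ hk.2 l⟩)
    (by
      intro z hz
      rw [Subgroup.mem_subgroupOf] at hz ⊢
      exact hz.1)
    (by
      intro a ha b hb
      rw [Subgroup.mem_subgroupOf] at ha hb
      rw [Subgroup.mem_subgroupOf, Subgroup.mem_inf]
      refine ⟨?_, h.hNN _ (hPN ha) _ (hPN hb)⟩
      show ⁅(a : G), (b : G)⁆ ∈ (P : Subgroup G)
      rw [commutatorElement_def]
      exact mul_mem (mul_mem (mul_mem ha hb) (inv_mem ha)) (inv_mem hb))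
    (by
      intro a b
      rw [Subgroup.mem_subgroupOf, ← hNL]
      exact Subgroup.mem_inf.mpr ⟨h.hGG _ _, (⁅a, b⁆ : L).2⟩)
    (by
      have h1 : ((((P : Subgroup G) ⊓ K).subgroupOf L).relIndex
          ((P : Subgroup G).subgroupOf L)) = ((P : Subgroup G) ⊓ K).relIndex P := by
        rw [Subgroup.relIndex_subgroupOf hPL]
      rw [h1, inf_comm, Subgroup.inf_relIndex_right, ← Subgroup.relIndex_sup_right (P : Subgroup G) K,
        le_antisymm (sup_le hPN h.hKN) hKP, h.hrel])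
    (by
      show (P : Subgroup G).relIndex L = p ^ m - 1
      rw [← hNL, Subgroup.inf_relIndex_right, ← Subgroup.relIndex_sup_right L N, hFr,
        Subgroup.relIndex_top_right, h.hidx])
    (by
      apply IsPGroup.of_injective P.isPGroup'
        (Subgroup.subgroupOfEquivOfLe hPL).toMonoidHom
      exact (Subgroup.subgroupOfEquivOfLe hPL).injective)
    (by
      intro x hx hxK k hk
      rw [Subgroup.mem_subgroupOf] at hx hk
      have hxK' : (x : G) ∉ K := by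
        intro h'
        apply hxK
        rw [Subgroup.mem_subgroupOf]
        exact Subgroup.mem_inf.mpr ⟨hx, h'⟩
      obtain ⟨t, ht, h5⟩ := (lemT h hPN hKP hx hxK').1 k hk
      refine ⟨⟨t, hPL ht⟩, ?_, ?_⟩
      · rw [Subgroup.mem_subgroupOf]; exact ht
      · apply Subtype.ext
        exact h5)
    (by
      intro x hx hxK y hy
      rw [Subgroup.mem_subgroupOf] at hx hy
      have hxK' : (x : G) ∉ K := by
        intro h'
        apply hxK
        rw [Subgroup.mem_subgroupOf]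
        exact Subgroup.mem_inf.mpr ⟨hx, h'⟩
      rw [Subgroup.mem_subgroupOf, ← hNL]
      refine Subgroup.mem_inf.mpr ⟨?_, y.2⟩
      apply h.hQ1 (x : G)⁻¹ (inv_mem (hPN hx)) (fun h' => hxK' (by simpa using inv_mem h')) y
      rw [commutatorElement_def, inv_inv]
      have e : (x : G)⁻¹ * y * x * (y : G)⁻¹ = (x : G)⁻¹ * (y * x * (y : G)⁻¹) := by group
      rw [e]
      exact hy.2)
  intro k hk u hu
  have h1 := key ⟨k, hPL hk.1⟩ (by rw [Subgroup.mem_subgroupOf]; exact hk) ⟨u, hPL hu⟩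
    (by rw [Subgroup.mem_subgroupOf]; exact hu)
  exact congrArg Subtype.val h1

end Cfsg.Agent.Lib.H12Cam6
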