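import Cfsg.Agent.Lib.H12Cam6

set_option autoImplicit false

/-!
# Camina type configurations: the main case, continued (helper12)
-/

namespace Cfsg.Agent.Lib.H12Cam7

open Cfsg Cfsg.Agent.Lib.H12Cam2 Cfsg.Agent.Lib.H12Cam3 Cfsg.Agent.Lib.H12Cam4
open Cfsg.Agent.Lib.H12Cam6
open scoped commutatorElement

variable {G : Type*} [Group G] [Finite G] {K N : Subgroup G} {p m : ℕ}

/-- A Sylow `p`-subgroup of `G` normalizing a Sylow `r`-subgroup of `K`. -/
theorem exists_sylow_norm (h : Cfg K N p m) {r : ℕ} [hr : Fact r.Prime] (hrp : r ≠ p)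
    (hrK : r ∣ Nat.card K) :
    ∃ (P : Sylow p G) (R : Subgroup G), N ≤ (P : Subgroup G) ⊔ K ∧ R ≤ K ∧ R ≠ ⊥ ∧ IsPGroup r R ∧
      (P : Subgroup G) ≤ Subgroup.normalizer (R : Set G) := by
  have hfp : Fact p.Prime := ⟨h.hp⟩
  have hKn := h.hK
  have hNn := h.hN
  obtain ⟨R0⟩ : Nonempty (Sylow r K) := inferInstance
  set R : Subgroup G := (R0 : Subgroup K).map K.subtype with hR
  have hRne : R ≠ ⊥ := by
    intro h1
    rw [hR, Subgroup.map_eq_bot_iff_of_injective _ K.subtype_injective] at h1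
    have h2 : r ∣ Nat.card (R0 : Subgroup K) := R0.dvd_card_of_dvd_card hrK
    rw [h1, Subgroup.card_bot] at h2
    exact hr.out.one_lt.ne' (Nat.dvd_one.mp h2)
  have hRK : R ≤ K := Subgroup.map_subtype_le _
  have hRp : IsPGroup r R := R0.isPGroup'.map _
  have hFr : Subgroup.normalizer (R : Set G) ⊔ K = ⊤ := Sylow.normalizer_sup_eq_top R0
  set T0 : Subgroup G := Subgroup.normalizer (R : Set G) with hT0
  set T1 : Subgroup G := T0 ⊓ N with hT1
  let π := QuotientGroup.mk' K
  have hπs : Function.Surjective π := QuotientGroup.mk'_surjective K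
  have hπ1 : ∀ a : G, π a = 1 ↔ a ∈ K := fun a => QuotientGroup.eq_one_iff a
  let f : T1 →* G ⧸ K := π.comp T1.subtype
  have hrange : IsPGroup p f.range := by
    rintro ⟨_, t, rfl⟩
    refine ⟨1, ?_⟩
    apply Subtype.ext
    show (π t) ^ p ^ 1 = 1
    rw [pow_one, ← map_pow, hπ1]
    exact h.hpow _ t.2.2
  obtain ⟨S⟩ : Nonempty (Sylow p T1) := inferInstance
  set S' : Subgroup G := (S : Subgroup T1).map T1.subtype with hS'
  have hS'T : S' ≤ T1 := Subgroup.map_subtype_le _
  have hS'N : S' ≤ N := hS'T.trans inf_le_right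
  have hNS : N ≤ S' ⊔ K := by
    intro y hy
    have h1 : y ∈ T0 ⊔ K := by rw [hFr]; trivial
    obtain ⟨t, ht, k, hk, rfl⟩ := Subgroup.mem_sup_of_normal_right.mp h1
    have htN : t ∈ N := by
      have := mul_mem hy (inv_mem (h.hKN hk))
      simpa using this
    have htop : (⊤ : Subgroup f.range) = (S.mapSurjective f.rangeRestrict_surjective :
        Sylow p f.range) :=
      (S.mapSurjective f.rangeRestrict_surjective).is_maximal' (hrange.to_subgroup ⊤) le_top
    have h2 : f.rangeRestrict ⟨t, Subgroup.mem_inf.mpr ⟨ht, htN⟩⟩ ∈ (⊤ : Subgroup f.range) := trivial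
    rw [htop] at h2
    obtain ⟨s, hs, hst⟩ := h2
    have h3 : π s = π t := congrArg Subtype.val hst
    have h4 : (s : G)⁻¹ * t ∈ K := by rw [← hπ1, map_mul, map_inv, h3, inv_mul_cancel]
    have e : t * k = s * ((s : G)⁻¹ * t * k) := by group
    rw [e]
    exact Subgroup.mul_mem_sup ⟨s, hs, rfl⟩ (mul_mem h4 hk)
  have hS'p : IsPGroup p S' := S.isPGroup'.map _
  obtain ⟨P, hSP⟩ := hS'p.exists_le_sylow
  have hPN : (P : Subgroup G) ≤ N := pgroup_le h P.isPGroup'
  have hPS : S' = (P : Subgroup G) := by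
    by_contra hne
    obtain ⟨y, hy, hyS, hyn⟩ := H31PGroup.exists_mem_normalizer P.isPGroup'
      (lt_of_le_of_ne hSP hne)
    exact hyS (selfnorm h hS'N hNS (hPN hy) hyn)
  refine ⟨P, R, by rw [← hPS]; exact hNS, hRK, hRne, hRp, ?_⟩
  rw [← hPS]
  exact hS'T.trans inf_le_left

set_option maxHeartbeats 1600000 in
theorem main_arith (h : Cfg K N p m) (hm2 : 2 ≤ m) {r : ℕ} [hr : Fact r.Prime] (hrp : r ≠ p)
    (hrK : r ∣ Nat.card K) : ¬ 4 ∣ Nat.card K := by
  classical
  have hfp : Fact p.Prime := ⟨h.hp⟩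
  have hp0 : 0 < p := h.hp.pos
  have hKn := h.hK
  have hNn := h.hN
  obtain ⟨P, R, hKP, hRK, hRne, hRp, hPR⟩ := exists_sylow_norm h hrp hrK
  have hPN : (P : Subgroup G) ≤ N := pgroup_le h P.isPGroup'
  have hcen := sylow_central h P hKP
  set P0 : Subgroup G := (P : Subgroup G) ⊓ K with hP0
  have hP0P : P0 ≤ (P : Subgroup G) := inf_le_left
  have hPp : IsPGroup p (P : Subgroup G) := P.isPGroup'
  have hPcomm : ∀ a ∈ (P : Subgroup G), ∀ b ∈ (P : Subgroup G), ⁅a, b⁆ ∈ P0 := by
    intro a ha b hb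
    refine Subgroup.mem_inf.mpr ⟨?_, h.hNN _ (hPN ha) _ (hPN hb)⟩
    rw [commutatorElement_def]
    exact mul_mem (mul_mem (mul_mem ha hb) (inv_mem ha)) (inv_mem hb)
  have hpowP : ∀ a ∈ (P : Subgroup G), a ^ p ∈ P0 := fun a ha =>
    Subgroup.mem_inf.mpr ⟨pow_mem ha p, h.hpow a (hPN ha)⟩
  have hcardP : Nat.card P0 * p ^ m = Nat.card P := by
    have hrel : K.relIndex P = p ^ m := by
      rw [← Subgroup.relIndex_sup_right (P : Subgroup G) K,
        le_antisymm (sup_le hPN h.hKN) hKP, h.hrel]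
    have h1 := card_mul_relIdx ((P : Subgroup G) ⊓ K) P inf_le_left
    rw [inf_comm, Subgroup.inf_relIndex_right, hrel, inf_comm] at h1
    exact h1
  obtain ⟨x, hxP, hxK⟩ := exists_mem h hKP
  have hxP0 : x ∉ P0 := fun h' => hxK h'.2
  -- `P0` has exponent `p`
  have hexp : ∀ k ∈ P0, k ^ p = 1 := by
    intro k hk
    obtain ⟨u, hu, hxu⟩ := (lemT h hPN hKP hxP hxK).1 k hk
    -- `x⁻¹ u x = ...`
    have hkx : Commute k x := hcen k hk x hxP
    have hku : Commute k u := hcen k hk u hu
    have h1 : ∀ n : ℕ, u ^ n * x * (u ^ n)⁻¹ = x * k ^ n := by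
      intro n
      induction n with
      | zero => simp
      | succ n ih =>
        have e1 : u ^ (n + 1) * x * (u ^ (n + 1))⁻¹ = u * (u ^ n * x * (u ^ n)⁻¹) * u⁻¹ := by
          rw [pow_succ']; group
        rw [e1, ih]
        have e2 : u * (x * k ^ n) * u⁻¹ = (u * x * u⁻¹) * (u * k ^ n * u⁻¹) := by group
        have e3 : u * k ^ n * u⁻¹ = k ^ n := by
          rw [← (hku.pow_left n).eq]; group
        rw [e2, e3, hxu, pow_succ']
        group
    have h2 := h1 p
    have h3 : Commute (u ^ p) x := hcen _ (hpowP u hu) x hxP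
    rw [h3.eq, mul_inv_cancel_right] at h2
    exact (mul_eq_left.mp h2.symm)
  -- elements outside `K` act freely on `R`
  have hcop : (Nat.card P).Coprime (Nat.card R) := by
    obtain ⟨a, ha⟩ := IsPGroup.iff_card.mp hPp
    obtain ⟨b, hb⟩ := IsPGroup.iff_card.mp hRp
    have : Nat.card P = Nat.card (P : Subgroup G) := rfl
    rw [this, ha, hb]
    exact Nat.Coprime.pow a b ((Nat.coprime_primes h.hp hr.out).mpr hrp.symm)
  have hfree : ∀ y ∈ (P : Subgroup G), y ∉ K → R ⊓ Subgroup.centralizer ({y} : Set G) = ⊥ := by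
    intro y hy hyK
    apply CopQuotGen.inf_eq_bot_of_coprime
    rw [h.hcent y (hPN hy) hyK]
    obtain ⟨b, hb⟩ := IsPGroup.iff_card.mp hRp
    rw [hb]
    exact Nat.Coprime.pow b m ((Nat.coprime_primes hr.out h.hp).mpr hrp)
  -- the maximal subgroup with nontrivial fixed points
  obtain ⟨D, ⟨hDP0, hDne⟩, hDmax⟩ := Set.exists_max_image
    {D : Subgroup G | D ≤ P0 ∧ R ⊓ Subgroup.centralizer (D : Set G) ≠ ⊥}
    (fun D => Nat.card D) (Set.toFinite _)
    ⟨⊥, bot_le, by
      have e : Subgroup.centralizer ((⊥ : Subgroup G) : Set G) = ⊤ := by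
        rw [Subgroup.eq_top_iff']
        intro z
        rw [Subgroup.mem_centralizer_iff]
        intro w hw
        have : w = 1 := hw
        rw [this]; simp
      rw [e, inf_top_eq]; exact hRne⟩
  have hDP : D ≤ (P : Subgroup G) := hDP0.trans hP0P
  have hDcen : ∀ d ∈ D, ∀ u ∈ (P : Subgroup G), d * u = u * d := fun d hd u hu =>
    (hcen d (hDP0 hd) u hu).eq
  set R0 : Subgroup G := R ⊓ Subgroup.centralizer (D : Set G) with hR0
  have claimE : ∀ E : Subgroup G, D ≤ E → E ≤ (P : Subgroup G) → ⁅E, E⁆ ≤ D →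
      ∃ y ∈ E, D ⊔ Subgroup.zpowers y = E := by
    intro E hDE hEP hEE
    by_contra hcon
    push Not at hcon
    have h1 := CopQuotGen.le_iSup_centralizer_of_quotient (P := E) (K := R0) (Z := D) hDE
      (by
        intro e he
        rw [Subgroup.mem_normalizer_iff]
        intro d
        constructor
        · intro hd
          rw [← hDcen d hd e (hEP he)]
          simpa using hd
        · intro hd
          have h2 := hDcen _ hd e (hEP he)
          have h3 : d = e⁻¹ * (e * d * e⁻¹) * e := by group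
          have h4 : e⁻¹ * (e * d * e⁻¹) * e = e * d * e⁻¹ := by
            rw [mul_assoc, h2]; group
          rw [h3, h4]; exact hd)
      (by
        intro d hd
        rw [Subgroup.mem_centralizer_iff]
        intro w hw
        exact ((Subgroup.mem_centralizer_iff.mp hw.2) d hd).symm)
      (by
        have h2 : ∀ e ∈ E, ∀ w ∈ R0, e * w * e⁻¹ ∈ R0 := by
          intro e he w hw
          refine Subgroup.mem_inf.mpr ⟨(Subgroup.mem_normalizer_iff.mp (hPR (hEP he)) w).mp hw.1, ?_⟩
          rw [Subgroup.mem_centralizer_iff]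
          intro d hd
          have h3 := hDcen d hd e (hEP he)
          have h4 := (Subgroup.mem_centralizer_iff.mp hw.2) d hd
          have h5 := hDcen d hd e⁻¹ (inv_mem (hEP he))
          calc d * (e * w * e⁻¹) = (d * e) * w * e⁻¹ := by group
            _ = e * (d * w) * e⁻¹ := by rw [h3]; group
            _ = e * w * (d * e⁻¹) := by rw [h4]; group
            _ = _ := by rw [h5]; group
        intro e he
        rw [Subgroup.mem_normalizer_iff]
        intro w
        refine ⟨h2 e he w, fun hw => ?_⟩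
        have := h2 e⁻¹ (inv_mem he) _ hw
        have e3 : e⁻¹ * (e * w * e⁻¹) * e⁻¹⁻¹ = w := by group
        rwa [e3] at this)
      (by
        apply Nat.Coprime.coprime_dvd_left (Subgroup.card_dvd_of_le hEP)
        apply Nat.Coprime.coprime_dvd_right (Subgroup.card_dvd_of_le (inf_le_left : R0 ≤ R))
        exact hcop)
      hEE hcon
    apply hDne
    rw [eq_bot_iff]
    refine h1.trans ?_
    apply iSup₂_le
    rintro y ⟨hyE, hyD⟩
    have hyP := hEP hyE
    by_cases hyK : y ∈ K
    · have hyP0 : y ∈ P0 := Subgroup.mem_inf.mpr ⟨hyP, hyK⟩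
      have h2 : R ⊓ Subgroup.centralizer ((D ⊔ Subgroup.zpowers y : Subgroup G) : Set G) = ⊥ := by
        by_contra hne
        have h3 := hDmax (D ⊔ Subgroup.zpowers y)
          ⟨sup_le hDP0 (by rw [Subgroup.zpowers_le]; exact hyP0), hne⟩
        have h4 : D < D ⊔ Subgroup.zpowers y := by
          refine lt_of_le_of_ne le_sup_left ?_
          intro heq
          apply hyD
          rw [heq]
          exact Subgroup.mem_sup_right (Subgroup.mem_zpowers y)
        have h5 := card_lt_of_lt h4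
        replace h3 : Nat.card (D ⊔ Subgroup.zpowers y : Subgroup G) ≤ Nat.card D := h3
        omega
      rw [← h2]
      intro w hw
      refine Subgroup.mem_inf.mpr ⟨hw.1.1, ?_⟩
      rw [Subgroup.mem_centralizer_iff]
      intro z hz
      have h3 : (D ⊔ Subgroup.zpowers y : Subgroup G) ≤ Subgroup.centralizer ({w} : Set G) := by
        refine sup_le ?_ ?_
        · intro d hd
          rw [Subgroup.mem_centralizer_singleton_iff]
          exact (Subgroup.mem_centralizer_iff.mp hw.1.2) d hd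
        · rw [Subgroup.zpowers_le, Subgroup.mem_centralizer_singleton_iff]
          exact (Subgroup.mem_centralizer_singleton_iff.mp hw.2).symm
      exact Subgroup.mem_centralizer_singleton_iff.mp (h3 hz)
    · refine le_trans ?_ (hfree y hyP hyK).le
      exact inf_le_inf_right _ inf_le_left
  -- claim 1
  have hDlt : D < P0 := by
    refine lt_of_le_of_ne hDP0 ?_
    intro heq
    obtain ⟨y, hy, hyE⟩ := claimE P hDP le_rfl (by
      rw [heq, Subgroup.commutator_le]
      exact hPcomm)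
    have h1 := card_sup_zp (D := D) (x := y) hp0 (fun d hd => hDcen d hd y hy)
      (by rw [heq]; exact hpowP y hy)
    rw [hyE, heq] at h1
    have h2 : Nat.card (P : Subgroup G) = Nat.card P0 * p ^ m := hcardP.symm
    rw [h2, mul_comm] at h1
    have h3 : p ^ m ≤ p := Nat.le_of_mul_le_mul_right h1 Nat.card_pos
    have h4 : p ^ 2 ≤ p ^ m := Nat.pow_le_pow_right hp0 hm2
    have h5 := h.hp.two_le
    nlinarith
  have hcardP0 : Nat.card P0 = p * Nat.card D := by
    obtain ⟨y, hy, hyE⟩ := claimE P0 hDP0 hP0P (by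
      rw [Subgroup.commutator_le]
      intro a ha b hb
      have : ⁅a, b⁆ = 1 := commutatorElement_eq_one_iff_mul_comm.mpr (hcen a ha b (hP0P hb)).eq
      rw [this]; exact one_mem _)
    have h1 := card_sup_zp (D := D) (x := y) hp0 (fun d hd => hDcen d hd y (hP0P hy))
      (by rw [hexp y hy]; exact one_mem _)
    rw [hyE] at h1
    exact le_antisymm h1 (mul_card_le hDlt (hPp.to_le hP0P))
  -- claim 2
  have claim2 : ∀ z ∈ (P : Subgroup G), z ∉ K → z ^ p ∉ D := by
    intro z hz hzK hzp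
    have hP0z : ∀ d ∈ P0, d * z = z * d := fun d hd => (hcen d hd z hz).eq
    have hEP : P0 ⊔ Subgroup.zpowers z ≤ (P : Subgroup G) :=
      sup_le hP0P (by rw [Subgroup.zpowers_le]; exact hz)
    have hEab : ∀ a ∈ P0 ⊔ Subgroup.zpowers z, ∀ b ∈ P0 ⊔ Subgroup.zpowers z, a * b = b * a := by
      intro a ha b hb
      obtain ⟨d, hd, i, rfl⟩ := mem_sup_zp hP0z ha
      obtain ⟨e, he, j, rfl⟩ := mem_sup_zp hP0z hb
      have h1 : Commute d (e * z ^ j) := hcen d hd _ (hEP hb)
      have h2 : Commute (z ^ i) e := (hcen e he _ (zpow_mem hz i)).symm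
      have h3 : Commute (z ^ i) (z ^ j) := Commute.zpow_zpow_self z i j
      exact (h1.mul_left (h2.mul_right h3)).eq
    obtain ⟨y, hy, hyE⟩ := claimE (P0 ⊔ Subgroup.zpowers z) (hDP0.trans le_sup_left) hEP (by
      rw [Subgroup.commutator_le]
      intro a ha b hb
      have : ⁅a, b⁆ = 1 := commutatorElement_eq_one_iff_mul_comm.mpr (hEab a ha b hb)
      rw [this]; exact one_mem _)
    have hyp : y ^ p ∈ D := by
      obtain ⟨d, hd, i, rfl⟩ := mem_sup_zp hP0z hy
      have h2 : Commute d (z ^ i) := hcen d hd _ (zpow_mem hz i)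
      rw [h2.mul_pow, hexp d hd, one_mul, ← zpow_natCast, ← zpow_mul, mul_comm, zpow_mul,
        zpow_natCast]
      exact zpow_mem hzp i
    have h1 := card_sup_zp (D := D) (x := y) hp0 (fun d hd => hDcen d hd y (hEP hy)) hyp
    rw [hyE, ← hcardP0] at h1
    have h2 : P0 < P0 ⊔ Subgroup.zpowers z := by
      refine lt_of_le_of_ne le_sup_left ?_
      intro heq
      have : z ∈ P0 := by rw [heq]; exact Subgroup.mem_sup_right (Subgroup.mem_zpowers z)
      exact hzK this.2
    have h3 := card_lt_of_lt h2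
    omega
  set F : Subgroup G := P0 ⊔ Subgroup.zpowers x with hF
  have hP0x : ∀ d ∈ P0, d * x = x * d := fun d hd => (hcen d hd x hxP).eq
  have hFP : F ≤ (P : Subgroup G) := sup_le hP0P (by rw [Subgroup.zpowers_le]; exact hxP)
  have hFcard : Nat.card F ≤ p * Nat.card P0 := card_sup_zp hp0 hP0x (hpowP x hxP)
  have hxF : x ∈ F := Subgroup.mem_sup_right (Subgroup.mem_zpowers x)
  have hP0F : P0 ≤ F := le_sup_left
  have hP0Flt : P0 < F := lt_of_le_of_ne hP0F (fun heq => hxP0 (heq ▸ hxF))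
  have hgenD : ∀ z ∈ P0, z ∉ D → P0 ≤ D ⊔ Subgroup.zpowers z := by
    intro z hz hzD
    have h1 : D < D ⊔ Subgroup.zpowers z := by
      refine lt_of_le_of_ne le_sup_left ?_
      intro heq
      exact hzD (heq ▸ Subgroup.mem_sup_right (Subgroup.mem_zpowers z))
    have h2 : D ⊔ Subgroup.zpowers z ≤ P0 := sup_le hDP0 (by rw [Subgroup.zpowers_le]; exact hz)
    have h3 := mul_card_le h1 ((hPp.to_le hP0P).to_le h2)
    exact (Subgroup.eq_of_le_of_card_ge h2 (by rw [hcardP0]; exact h3)).ge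
  have hp2 : p = 2 := by
    by_contra hp2
    obtain ⟨y, hyP, hyF⟩ : ∃ y ∈ (P : Subgroup G), y ∉ F := by
      by_contra hcon
      push Not at hcon
      have h1 : Nat.card (P : Subgroup G) ≤ Nat.card F := Subgroup.card_le_of_le hcon
      have h2 : Nat.card (P : Subgroup G) = Nat.card P0 * p ^ m := hcardP.symm
      rw [h2, mul_comm] at h1
      have h3 : p ^ m ≤ p := Nat.le_of_mul_le_mul_right (h1.trans hFcard) Nat.card_pos
      have h4 : p ^ 2 ≤ p ^ m := Nat.pow_le_pow_right hp0 hm2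
      have h5 := h.hp.two_le
      nlinarith
    have h1 := hgenD (x ^ p) (hpowP x hxP) (claim2 x hxP hxK) (hpowP y hyP)
    obtain ⟨d, hd, i, hi⟩ := mem_sup_zp
      (fun d hd => hDcen d hd (x ^ p) (pow_mem hxP p)) h1
    set z := x ^ (-i) with hz
    have hzP : z ∈ (P : Subgroup G) := zpow_mem hxP _
    set c := (z * y)⁻¹ * (y * z) with hc
    have hcP0 : c ∈ P0 := by
      have h2 := hPcomm y⁻¹ (inv_mem hyP) z⁻¹ (inv_mem hzP)
      have e : c = ⁅y⁻¹, z⁻¹⁆ := by rw [hc, commutatorElement_def]; group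
      rw [e]; exact h2
    have h3 := H32MinAct.mul_pow_prime h.hp hp2 (x := z) (y := y) (c := c)
      (hcen c hcP0 z hzP) (hcen c hcP0 y hyP) (hexp c hcP0) (by rw [hc]; group)
    have h4 : (z * y) ^ p = d := by
      rw [h3, hi, hz, ← zpow_natCast (x ^ (-i)) p, ← zpow_mul, ← zpow_natCast x p, ← zpow_mul,
        hDcen d hd _ (zpow_mem hxP _), ← mul_assoc, ← zpow_add]
      have : -i * (p : ℤ) + (p : ℤ) * i = 0 := by ring
      rw [this, zpow_zero, one_mul]
    apply claim2 (z * y) (mul_mem hzP hyP) ?_ (by rw [h4]; exact hd)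
    intro h5
    apply hyF
    have h6 : z * y ∈ P0 := Subgroup.mem_inf.mpr ⟨mul_mem hzP hyP, h5⟩
    have h7 : y = z⁻¹ * (z * y) := by group
    rw [h7]
    exact mul_mem (inv_mem (zpow_mem hxF _)) (hP0F h6)
  subst hp2
  -- the prime two
  have hDidx : ∀ a ∈ P0, a ∉ D → ∀ b ∈ P0, b ∉ D → a * b ∈ D := by
    intro a ha haD b hb hbD
    have h1 : (D.subgroupOf P0).index = 2 := by
      have h2 := card_mul_relIdx D P0 hDP0
      rw [hcardP0, mul_comm] at h2
      exact Nat.eq_of_mul_eq_mul_right Nat.card_pos h2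
    have h2 := Subgroup.mul_mem_iff_of_index_two h1 (a := (⟨a, ha⟩ : P0)) (b := ⟨b, hb⟩)
    rw [Subgroup.mem_subgroupOf, Subgroup.mem_subgroupOf, Subgroup.mem_subgroupOf] at h2
    exact h2.mpr ⟨fun h => absurd h haD, fun h => absurd h hbD⟩
  have hPF : Nat.card (P : Subgroup G) ≤ 2 * Nat.card F := by
    -- centralizer of `x` modulo `D`
    have hCle : ∀ y ∈ (P : Subgroup G), ⁅y, x⁆ ∈ D → y ∈ F := by
      intro y hyP hyD
      by_contra hyF
      have hyK : y ∉ K := by
        intro h'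
        exact hyF (hP0F (Subgroup.mem_inf.mpr ⟨hyP, h'⟩))
      have hxyK : x * y ∉ K := by
        intro h'
        apply hyF
        have h6 : x * y ∈ P0 := Subgroup.mem_inf.mpr ⟨mul_mem hxP hyP, h'⟩
        have h7 : y = x⁻¹ * (x * y) := by group
        rw [h7]
        exact mul_mem (inv_mem hxF) (hP0F h6)
      apply claim2 (x * y) (mul_mem hxP hyP) hxyK
      have h1 : y * x = ⁅y, x⁆ * (x * y) := by rw [commutatorElement_def]; group
      have h2 : (x * y) ^ 2 = ⁅y, x⁆ * (x ^ 2 * y ^ 2) := by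
        have h3 := hDcen _ hyD x hxP
        calc (x * y) ^ 2 = x * (y * x) * y := by rw [pow_two]; group
          _ = (x * ⁅y, x⁆) * (x * y) * y := by rw [h1]; group
          _ = (⁅y, x⁆ * x) * (x * y) * y := by rw [h3]
          _ = _ := by rw [pow_two, pow_two]; group
      rw [h2]
      exact mul_mem hyD (hDidx _ (hpowP x hxP) (claim2 x hxP hxK) _ (hpowP y hyP)
        (claim2 y hyP hyK))
    -- the map `y ↦ [y, x]` mod `D`
    let D' : Subgroup P := D.subgroupOf P
    have hD'n : D'.Normal := by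
      constructor
      intro d hd u
      rw [Subgroup.mem_subgroupOf] at hd ⊢
      have h1 := hDcen d hd u u.2
      have h2 : ((u * d * u⁻¹ : P) : G) = d := by
        show (u : G) * d * (u : G)⁻¹ = d
        rw [← h1]; group
      rw [h2]; exact hd
    let ρ := QuotientGroup.mk' D'
    have hρs : Function.Surjective ρ := QuotientGroup.mk'_surjective D'
    have hρ1 : ∀ a : P, ρ a = 1 ↔ (a : G) ∈ D := fun a => by
      rw [← Subgroup.mem_subgroupOf]
      exact QuotientGroup.eq_one_iff a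
    have hA : Nat.card ((P0.subgroupOf P).map ρ) ≤ 2 := by
      have h1 : D' ≤ P0.subgroupOf P := fun z hz => hDP0 hz
      have h2 : (D'.map ρ) = ⊥ := by
        rw [Subgroup.map_eq_bot_iff, QuotientGroup.ker_mk']
      have h3 : (D'.map ρ).relIndex ((P0.subgroupOf P).map ρ) = D'.relIndex (P0.subgroupOf P) := by
        rw [Subgroup.relIndex_map_map, QuotientGroup.ker_mk', sup_idem, sup_eq_left.mpr h1]
      rw [h2, Subgroup.relIndex_bot_left, Subgroup.relIndex_subgroupOf hP0P] at h3
      have h4 := card_mul_relIdx D P0 hDP0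
      rw [hcardP0, mul_comm] at h4
      have h5 := Nat.eq_of_mul_eq_mul_right Nat.card_pos h4
      rw [h3, h5]
    have hidx : (Subgroup.centralizer ({ρ ⟨x, hxP⟩} : Set (P ⧸ D'))).index ≤ 2 := by
      refine le_trans ?_ hA
      have h1 := orbit_card (⊤ : Subgroup (P ⧸ D')) (ρ ⟨x, hxP⟩)
      rw [top_inf_eq, Subgroup.card_top] at h1
      have h2 := (Subgroup.centralizer ({ρ ⟨x, hxP⟩} : Set (P ⧸ D'))).index_mul_card
      rw [← h1] at h2
      have h3 := Nat.eq_of_mul_eq_mul_right Nat.card_pos h2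
      rw [h3]
      let f : {y : P ⧸ D' // ∃ u ∈ (⊤ : Subgroup (P ⧸ D')), u * ρ ⟨x, hxP⟩ * u⁻¹ = y} →
          (P0.subgroupOf P).map ρ := fun z => ⟨z.1 * (ρ ⟨x, hxP⟩)⁻¹, by
        obtain ⟨u, hu, h⟩ := z.2
        obtain ⟨u, rfl⟩ := hρs u
        rw [← h]
        refine ⟨⁅u, ⟨x, hxP⟩⁆, ?_, ?_⟩
        · exact hPcomm u u.2 x hxP
        · rw [map_commutatorElement]; rfl⟩
      apply Nat.card_le_card_of_injective f
      intro a b hab
      have := congrArg Subtype.val hab
      apply Subtype.ext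
      exact mul_right_cancel this
    rw [← Subgroup.index_comap_of_surjective _ hρs] at hidx
    have hle : (Subgroup.centralizer ({ρ ⟨x, hxP⟩} : Set (P ⧸ D'))).comap ρ ≤ F.subgroupOf P := by
      intro y hy
      rw [Subgroup.mem_comap, Subgroup.mem_centralizer_singleton_iff] at hy
      rw [Subgroup.mem_subgroupOf]
      apply hCle y y.2
      have h1 : ρ ⁅y, ⟨x, hxP⟩⁆ = 1 := by
        rw [map_commutatorElement, commutatorElement_eq_one_iff_mul_comm]
        exact hy
      exact (hρ1 _).mp h1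
    have h1 := Nat.le_of_dvd (Nat.pos_of_ne_zero Subgroup.index_ne_zero_of_finite)
      (Subgroup.index_dvd_of_le hle)
    have h2 := card_mul_relIdx F P hFP
    have h3 : F.relIndex P ≤ 2 := h1.trans hidx
    have h4 : Nat.card (P : Subgroup G) = Nat.card F * F.relIndex P := h2.symm
    rw [h4, mul_comm]
    exact Nat.mul_le_mul_right _ h3
  have hm : m = 2 := by
    have h1 : Nat.card (P : Subgroup G) = Nat.card P0 * 2 ^ m := hcardP.symm
    rw [h1] at hPF
    have h2 : Nat.card P0 * 2 ^ m ≤ Nat.card P0 * 4 := by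
      calc _ ≤ 2 * Nat.card F := hPF
        _ ≤ 2 * (2 * Nat.card P0) := Nat.mul_le_mul_left _ hFcard
        _ = _ := by ring
    have h3 := Nat.le_of_mul_le_mul_left h2 Nat.card_pos
    by_contra hne
    have h4 : 2 ^ 3 ≤ 2 ^ m := Nat.pow_le_pow_right (by norm_num) (by omega)
    omega
  subst hm
  have hP0le : Nat.card P0 ≤ 2 := by
    have h1 := mul_card_le hP0Flt (hPp.to_le hFP)
    have h2 : F ≤ Subgroup.centralizer ({x} : Set G) := by
      refine sup_le ?_ ?_
      · intro d hd
        rw [Subgroup.mem_centralizer_singleton_iff]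
        exact hP0x d hd
      · rw [Subgroup.zpowers_le, Subgroup.mem_centralizer_singleton_iff]
    have h3 := Subgroup.card_le_of_le h2
    rw [h.hcent x (hPN hxP) hxK] at h3
    omega
  intro h4
  have hcK : Nat.card K = Nat.card P0 * (P : Subgroup G).relIndex N := by
    have h1 := card_mul_relIdx K N h.hKN
    rw [h.hrel] at h1
    have h2 := card_mul_relIdx (P : Subgroup G) N hPN
    have h3 : Nat.card (P : Subgroup G) = Nat.card P0 * 2 ^ 2 := hcardP.symm
    rw [← h1, h3] at h2
    have h5 : Nat.card K * 2 ^ 2 = (Nat.card P0 * (P : Subgroup G).relIndex N) * 2 ^ 2 := by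
      rw [← h2]; ring
    exact Nat.eq_of_mul_eq_mul_right (by norm_num) h5
  have hodd : ¬ 2 ∣ (P : Subgroup G).relIndex N := by
    intro h5
    have h6 : (P : Subgroup G).relIndex N ∣ (P : Subgroup G).index :=
      ⟨N.index, (Subgroup.relIndex_mul_index hPN).symm⟩
    exact P.not_dvd_index (h5.trans h6)
  rw [hcK] at h4
  have h5 : Nat.Coprime 4 ((P : Subgroup G).relIndex N) := by
    have : Nat.Coprime (2 ^ 2) ((P : Subgroup G).relIndex N) :=
      Nat.Coprime.pow_left 2 ((Nat.Prime.coprime_iff_not_dvd Nat.prime_two).mpr hodd)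
    exact this
  have h6 := Nat.le_of_dvd Nat.card_pos (h5.dvd_of_dvd_mul_right h4)
  omega

end Cfsg.Agent.Lib.H12Cam7
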