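import Mathlib

/-! Fixed points of an element of prime order in transitive actions of solvable groups generated by its conjugates. -/

set_option autoImplicit false
set_option maxHeartbeats 400000

namespace Cfsg.Agent.Lib.H12Fix

open Subgroup MulAction

theorem perm_eq_one {α : Type*} [Finite α] {p : ℕ} [hp : Fact p.Prime] (π : Equiv.Perm α) (h : π ^ p = 1)
    (hc : Nat.card α < p) : π = 1 := by
  classical
  have : Fintype α := Fintype.ofFinite α
  by_contra hne
  have h1 : orderOf π = p := orderOf_eq_prime h hne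
  have h2 : orderOf π ∣ Fintype.card (Equiv.Perm α) := orderOf_dvd_card
  rw [h1, Fintype.card_perm, (hp.out).dvd_factorial] at h2
  rw [Nat.card_eq_fintype_card] at hc
  omega

variable {G : Type*} [Group G] [Finite G]

/-- commutator homomorphism into an abelian section: the range has at least `p` elements unless trivial -/
theorem range_ge {p : ℕ} [hp : Fact p.Prime] {N D : Subgroup G} [hN : N.Normal] [hD : D.Normal]
    (hND : ∀ a ∈ N, ∀ b ∈ N, a * b * a⁻¹ * b⁻¹ ∈ D) {x : G} (hx : x ^ p = 1)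
    (hne : ∃ n ∈ N, x⁻¹ * n⁻¹ * x * n ∉ D) :
    ∃ C : Subgroup G, C ≤ N ∧ (∀ n, n ∈ C ↔ n ∈ N ∧ x⁻¹ * n⁻¹ * x * n ∈ D) ∧ p * Nat.card C ≤ Nat.card N := by
  classical
  let mk := QuotientGroup.mk' D
  have hmk : ∀ g, mk g = 1 ↔ g ∈ D := by
    intro g
    rw [← MonoidHom.mem_ker, QuotientGroup.ker_mk']
  have hcomm : ∀ a ∈ N, ∀ b ∈ N, mk a * mk b = mk b * mk a := by
    intro a ha b hb
    have h := (hmk _).2 (hND a ha b hb)
    rw [map_mul, map_mul, map_mul, map_inv, map_inv] at h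
    rw [mul_inv_eq_one, mul_inv_eq_iff_eq_mul] at h
    exact h
  have hcN : ∀ n ∈ N, x⁻¹ * n⁻¹ * x * n ∈ N := by
    intro n hn
    have := hN.conj_mem _ (N.inv_mem hn) x⁻¹
    rw [inv_inv] at this
    exact N.mul_mem this hn
  let φ : N →* G ⧸ D := MonoidHom.mk' (fun n => mk (x⁻¹ * (n : G)⁻¹ * x * n)) (by
    rintro ⟨a, ha⟩ ⟨b, hb⟩
    show mk (x⁻¹ * (a * b)⁻¹ * x * (a * b)) = mk (x⁻¹ * a⁻¹ * x * a) * mk (x⁻¹ * b⁻¹ * x * b)
    have h1 : x⁻¹ * (a * b)⁻¹ * x * (a * b) = (x⁻¹ * b⁻¹ * x) * (x⁻¹ * a⁻¹ * x * a) * b := by group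
    have h2 : x⁻¹ * b⁻¹ * x ∈ N := by
      have := hN.conj_mem _ (N.inv_mem hb) x⁻¹
      rwa [inv_inv] at this
    rw [h1, map_mul, map_mul, hcomm _ h2 _ (hcN a ha), mul_assoc, ← map_mul mk (x⁻¹ * b⁻¹ * x) b])
  have hker : ∀ n : N, n ∈ φ.ker ↔ x⁻¹ * (n : G)⁻¹ * x * n ∈ D := fun n => hmk _
  refine ⟨φ.ker.map N.subtype, map_subtype_le _, ?_, ?_⟩
  · intro n
    constructor
    · rintro ⟨m, hm, rfl⟩
      exact ⟨m.2, (hker m).1 hm⟩
    · rintro ⟨hn, h⟩
      exact ⟨⟨n, hn⟩, (hker ⟨n, hn⟩).2 h, rfl⟩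
  · have h1 : Nat.card (φ.ker.map N.subtype) = Nat.card φ.ker := card_map_of_injective N.subtype_injective
    have h2 : Nat.card φ.ker * Nat.card φ.range = Nat.card N := by
      rw [← index_ker]
      exact card_mul_index φ.ker
    rw [h1, ← h2, mul_comm]
    apply Nat.mul_le_mul_left
    by_contra hlt
    push Not at hlt
    -- `x` acts on the range
    have hact : ∀ n : N, mk x * φ n * (mk x)⁻¹ ∈ φ.range := by
      intro n
      refine ⟨⟨x * n * x⁻¹, hN.conj_mem _ n.2 x⟩, ?_⟩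
      show mk (x⁻¹ * (x * n * x⁻¹)⁻¹ * x * (x * n * x⁻¹)) = mk x * mk (x⁻¹ * (n : G)⁻¹ * x * n) * (mk x)⁻¹
      rw [← map_inv, ← map_mul, ← map_mul]
      congr 1
      group
    have hact' : ∀ n : N, (mk x)⁻¹ * φ n * mk x ∈ φ.range := by
      intro n
      have hxn : x⁻¹ * (n : G) * x ∈ N := by
        have := hN.conj_mem _ n.2 x⁻¹
        rwa [inv_inv] at this
      refine ⟨⟨x⁻¹ * n * x, hxn⟩, ?_⟩
      show mk (x⁻¹ * (x⁻¹ * n * x)⁻¹ * x * (x⁻¹ * n * x)) = (mk x)⁻¹ * mk (x⁻¹ * (n : G)⁻¹ * x * n) * mk x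
      rw [← map_inv, ← map_mul, ← map_mul]
      congr 1
      group
    let π : Equiv.Perm φ.range :=
      { toFun := fun r => ⟨mk x * r * (mk x)⁻¹, by obtain ⟨n, hn⟩ := r.2; rw [← hn]; exact hact n⟩
        invFun := fun r => ⟨(mk x)⁻¹ * r * mk x, by obtain ⟨n, hn⟩ := r.2; rw [← hn]; exact hact' n⟩
        left_inv := fun r => Subtype.ext (by simp [mul_assoc])
        right_inv := fun r => Subtype.ext (by simp [mul_assoc]) }
    have hπk : ∀ k : ℕ, ∀ r : φ.range, (((π ^ k) r : φ.range) : G ⧸ D) = (mk x) ^ k * r * ((mk x) ^ k)⁻¹ := by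
      intro k
      induction k with
      | zero => intro r; simp
      | succ k ih =>
        intro r
        rw [pow_succ', Equiv.Perm.mul_apply]
        show mk x * ((π ^ k) r : φ.range) * (mk x)⁻¹ = _
        rw [ih, pow_succ']
        simp [mul_assoc]
    have hxp : (mk x) ^ p = 1 := by rw [← map_pow, hx, map_one]
    have hπp : π ^ p = 1 := by
      ext r
      rw [hπk, hxp]
      simp
    have hπ1 := perm_eq_one π hπp hlt
    have hxc : ∀ n : N, mk x * φ n = φ n * mk x := by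
      intro n
      have h3 := hπk 1 ⟨φ n, ⟨n, rfl⟩⟩
      rw [pow_one, pow_one, hπ1] at h3
      have h4 : φ n = mk x * φ n * (mk x)⁻¹ := h3
      rw [eq_mul_inv_iff_mul_eq] at h4
      exact h4.symm
    have hφ1 : ∀ n : N, φ n = 1 := by
      intro n
      have h3 : (mk (n : G))⁻¹ * mk x * mk n = mk x * φ n := by
        show _ = mk x * mk (x⁻¹ * (n : G)⁻¹ * x * n)
        rw [← map_inv, ← map_mul, ← map_mul, ← map_mul]
        congr 1
        group
      have h4 : ((mk (n : G))⁻¹ * mk x * mk n) ^ p = 1 := by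
        have h5 : ((mk (n : G))⁻¹ * mk x * mk n) ^ p = (mk (n : G))⁻¹ * (mk x) ^ p * mk n := by
          have := conj_pow (a := (mk (n : G))⁻¹) (b := mk x) (i := p)
          rw [inv_inv] at this
          exact this
        rw [h5, hxp, mul_one, inv_mul_cancel]
      rw [h3, (show Commute (mk x) (φ n) from hxc n).mul_pow, hxp, one_mul] at h4
      have h5 : orderOf (φ n) ∣ p := orderOf_dvd_of_pow_eq_one h4
      have h6 : orderOf (φ n) ∣ Nat.card φ.range := by
        have h9 := orderOf_dvd_natCard (⟨φ n, ⟨n, rfl⟩⟩ : φ.range)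
        rw [← Subgroup.orderOf_coe] at h9
        exact h9
      rcases (Nat.dvd_prime hp.out).1 h5 with h7 | h7
      · exact orderOf_eq_one_iff.1 h7
      · rw [h7] at h6
        have h8 : 0 < Nat.card φ.range := Nat.card_pos
        have := Nat.le_of_dvd h8 h6
        omega
    obtain ⟨n, hn, hnD⟩ := hne
    exact hnD ((hmk _).1 (hφ1 ⟨n, hn⟩))

theorem core_case [Group.IsSolvable G] {p : ℕ} [hp : Fact p.Prime] {M : Subgroup G} (hM : IsCoatom M) {x : G}
    (hxM : x ∈ M) (hx : x ^ p = 1) (hgen : normalClosure ({x} : Set G) = ⊤) :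
    p * Nat.card (fixedBy (G ⧸ M) x) ≤ Nat.card (G ⧸ M) := by
  classical
  -- minimal normal subgroup outside `M`
  obtain ⟨N, ⟨hNn, hNM⟩, hmin⟩ := (wellFounded_lt (α := Subgroup G)).has_min {N : Subgroup G | N.Normal ∧ ¬ N ≤ M}
    ⟨⊤, inferInstance, fun h => hM.1 (top_le_iff.1 h)⟩
  have hNN : ⁅N, N⁆ ≤ M := by
    by_contra hcon
    have hbot : N ≠ ⊥ := by
      rintro rfl
      exact hNM bot_le
    exact hmin ⁅N, N⁆ ⟨inferInstance, hcon⟩ (Group.IsSolvable.commutator_lt_of_ne_bot hbot)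
  have hsup : N ⊔ M = ⊤ := hM.2 _ (by
    rw [right_lt_sup]
    exact hNM)
  have hdec : ∀ g : G, ∃ n ∈ N, ∃ m ∈ M, n * m = g := by
    intro g
    have : g ∈ N ⊔ M := by rw [hsup]; exact mem_top g
    exact mem_sup_of_normal_left.1 this
  let D := N ⊓ M
  have hDN : ∀ a ∈ N, ∀ b ∈ N, a * b * a⁻¹ * b⁻¹ ∈ D := by
    intro a ha b hb
    have h1 : a * b * a⁻¹ * b⁻¹ ∈ ⁅N, N⁆ := by
      have := commutator_mem_commutator ha hb
      exact this
    exact ⟨commutator_le_left N N h1, hNN h1⟩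
  have hDn : D.Normal := by
    constructor
    intro d hd g
    obtain ⟨n, hn, m, hm, rfl⟩ := hdec g
    have h1 : m * d * m⁻¹ ∈ D := ⟨hNn.conj_mem _ hd.1 m, M.mul_mem (M.mul_mem hm hd.2) (M.inv_mem hm)⟩
    have h2 := D.mul_mem (hDN n hn _ h1.1) h1
    have h3 : n * m * d * (n * m)⁻¹ = n * (m * d * m⁻¹) * n⁻¹ * (m * d * m⁻¹)⁻¹ * (m * d * m⁻¹) := by group
    rw [h3]
    exact h2
  have hne : ∃ n ∈ N, x⁻¹ * n⁻¹ * x * n ∉ D := by
    by_contra hcon
    push Not at hcon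
    apply hM.1
    rw [eq_top_iff, ← hgen]
    have h1 : ∀ n ∈ N, n⁻¹ * x * n ∈ M := by
      intro n hn
      have := M.mul_mem hxM (hcon n hn).2
      rwa [show x * (x⁻¹ * n⁻¹ * x * n) = n⁻¹ * x * n by group] at this
    rw [normalClosure, closure_le]
    intro y hy
    rw [Group.mem_conjugatesOfSet_iff] at hy
    obtain ⟨z, hz, hzy⟩ := hy
    rw [Set.mem_singleton_iff] at hz
    subst hz
    obtain ⟨g, hg⟩ := isConj_iff.1 hzy
    obtain ⟨n, hn, m, hm, hnm⟩ := hdec g⁻¹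
    have hg' : g = m⁻¹ * n⁻¹ := by rw [← mul_inv_rev, hnm, inv_inv]
    rw [← hg, hg']
    have h2 := h1 n hn
    have h3 := M.mul_mem (M.mul_mem (M.inv_mem hm) h2) hm
    have h4 : m⁻¹ * n⁻¹ * z * (m⁻¹ * n⁻¹)⁻¹ = m⁻¹ * (n⁻¹ * z * n) * m := by group
    rw [SetLike.mem_coe, h4]
    exact h3
  obtain ⟨C, hCN, hC, hCc⟩ := range_ge hDN hx hne
  have hDC : D ≤ C := by
    intro d hd
    rw [hC]
    refine ⟨hd.1, ?_⟩
    have h1 := hDn.conj_mem _ (D.inv_mem hd) x⁻¹
    rw [inv_inv] at h1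
    exact D.mul_mem h1 hd
  -- representatives in N
  have hrep : ∀ ω : G ⧸ M, ∃ n ∈ N, (n : G ⧸ M) = ω := by
    intro ω
    obtain ⟨g, rfl⟩ := QuotientGroup.mk_surjective ω
    obtain ⟨n, hn, m, hm, rfl⟩ := hdec g
    refine ⟨n, hn, ?_⟩
    rw [QuotientGroup.eq]
    rwa [inv_mul_cancel_left]
  choose r hrN hr using hrep
  -- fixed points have representatives in C
  have hfix : ∀ ω ∈ fixedBy (G ⧸ M) x, r ω ∈ C := by
    intro ω hω
    rw [hC]
    refine ⟨hrN ω, ?_⟩
    have h1 : x • ω = ω := hω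
    rw [← hr ω, MulAction.Quotient.smul_coe, smul_eq_mul, QuotientGroup.eq, mul_inv_rev] at h1
    have h2 : (r ω)⁻¹ * x * r ω ∈ M := by
      have := M.inv_mem h1
      rw [show ((r ω)⁻¹ * x⁻¹ * r ω)⁻¹ = (r ω)⁻¹ * x * r ω by group] at this
      exact this
    refine ⟨?_, ?_⟩
    · have := hNn.conj_mem _ (N.inv_mem (hrN ω)) x⁻¹
      rw [inv_inv] at this
      exact N.mul_mem this (hrN ω)
    · have := M.mul_mem (M.inv_mem hxM) h2
      rwa [← mul_assoc, ← mul_assoc] at this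
  have e1 : Nat.card (fixedBy (G ⧸ M) x) * Nat.card D ≤ Nat.card C := by
    rw [← Nat.card_prod]
    apply Nat.card_le_card_of_injective (fun q : fixedBy (G ⧸ M) x × D => (⟨r q.1 * q.2, C.mul_mem (hfix _ q.1.2) (hDC q.2.2)⟩ : C))
    rintro ⟨⟨a, ha⟩, ⟨b, hb⟩⟩ ⟨⟨c, hc⟩, ⟨d, hd⟩⟩ h
    have h1 : r a * b = r c * d := congrArg Subtype.val h
    have h2 : a = c := by
      rw [← hr a, ← hr c, QuotientGroup.eq]
      have h3 : (r a)⁻¹ * r c = b * d⁻¹ := by
        rw [inv_mul_eq_iff_eq_mul, ← mul_assoc, h1, mul_inv_cancel_right]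
      rw [h3]
      exact M.mul_mem hb.2 (M.inv_mem hd.2)
    subst h2
    have h3 := mul_left_cancel h1
    subst h3
    rfl
  have e2 : Nat.card N ≤ Nat.card (G ⧸ M) * Nat.card D := by
    rw [← Nat.card_prod]
    have hmem : ∀ n : N, (r ((n : G) : G ⧸ M))⁻¹ * n ∈ D := by
      intro n
      refine ⟨N.mul_mem (N.inv_mem (hrN _)) n.2, ?_⟩
      have := hr ((n : G) : G ⧸ M)
      rwa [QuotientGroup.eq] at this
    apply Nat.card_le_card_of_injective (fun n : N => (((n : G) : G ⧸ M), (⟨_, hmem n⟩ : D)))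
    intro a b h
    obtain ⟨h1, h2⟩ := Prod.ext_iff.1 h
    have h1' : ((a : G) : G ⧸ M) = ((b : G) : G ⧸ M) := h1
    have h2' : (r ((a : G) : G ⧸ M))⁻¹ * (a : G) = (r ((b : G) : G ⧸ M))⁻¹ * (b : G) := congrArg Subtype.val h2
    rw [h1'] at h2'
    exact Subtype.ext (mul_left_cancel h2')
  have hDpos : 0 < Nat.card D := Nat.card_pos
  have e3 : (p * Nat.card (fixedBy (G ⧸ M) x)) * Nat.card D ≤ Nat.card (G ⧸ M) * Nat.card D := by
    calc (p * Nat.card (fixedBy (G ⧸ M) x)) * Nat.card D = p * (Nat.card (fixedBy (G ⧸ M) x) * Nat.card D) := by ring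
      _ ≤ p * Nat.card C := Nat.mul_le_mul_left _ e1
      _ ≤ Nat.card N := hCc
      _ ≤ _ := e2
  exact Nat.le_of_mul_le_mul_right e3 hDpos

variable {Ω : Type*} [MulAction G Ω] [Finite Ω]

theorem trans_case [Group.IsSolvable G] [IsPretransitive G Ω] {p : ℕ} [hp : Fact p.Prime] {x : G}
    (hx : x ^ p = 1) (hgen : normalClosure ({x} : Set G) = ⊤) (hΩ : 1 < Nat.card Ω) :
    p * Nat.card (fixedBy Ω x) ≤ Nat.card Ω := by
  classical
  by_cases hemp : (fixedBy Ω x) = ∅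
  · rw [hemp]; simp
  obtain ⟨ω, hω⟩ := Set.nonempty_iff_ne_empty.2 hemp
  have hstab : stabilizer G ω ≠ ⊤ := by
    intro h
    rw [Finite.one_lt_card_iff_nontrivial] at hΩ
    obtain ⟨a, b, hab⟩ := hΩ
    apply hab
    obtain ⟨g, rfl⟩ := exists_smul_eq G ω a
    obtain ⟨k, rfl⟩ := exists_smul_eq G ω b
    have h1 : g ∈ stabilizer G ω := by rw [h]; exact mem_top g
    have h2 : k ∈ stabilizer G ω := by rw [h]; exact mem_top k
    rw [mem_stabilizer_iff.1 h1, mem_stabilizer_iff.1 h2]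
  obtain ⟨M, hM, hHM⟩ := (eq_top_or_exists_le_coatom (stabilizer G ω)).resolve_left hstab
  have hxM : x ∈ M := hHM (mem_stabilizer_iff.2 hω)
  have hcore := core_case hM hxM hx hgen
  have : Fintype Ω := Fintype.ofFinite Ω
  have : Fintype (G ⧸ M) := Fintype.ofFinite _
  choose γ hγ using fun ω' => exists_smul_eq G ω ω'
  let f : Ω → G ⧸ M := fun ω' => ((γ ω' : G) : G ⧸ M)
  have hf : ∀ (y : G) (ω' : Ω), f (y • ω') = y • f ω' := by
    intro y ω'
    show ((γ (y • ω') : G) : G ⧸ M) = y • ((γ ω' : G) : G ⧸ M)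
    rw [MulAction.Quotient.smul_coe, smul_eq_mul, QuotientGroup.eq]
    apply hHM
    rw [mem_stabilizer_iff, mul_smul, mul_smul, hγ, inv_smul_eq_iff, hγ]
  have hfib : ∀ c : G ⧸ M, (Finset.univ.filter (fun ω' => f ω' = c)).card =
      (Finset.univ.filter (fun ω' => f ω' = f ω)).card := by
    intro c
    obtain ⟨g, rfl⟩ := QuotientGroup.mk_surjective c
    have hfω : f ω = ((1 : G) : G ⧸ M) := by
      show ((γ ω : G) : G ⧸ M) = _
      rw [QuotientGroup.eq, mul_one]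
      apply M.inv_mem
      exact hHM (mem_stabilizer_iff.2 (hγ ω))
    symm
    apply Finset.card_bij (fun ω' _ => g • ω')
    · intro ω' h
      rw [Finset.mem_filter] at h ⊢
      refine ⟨Finset.mem_univ _, ?_⟩
      rw [hf, h.2, hfω, MulAction.Quotient.smul_coe, smul_eq_mul, mul_one]
    · intro a _ b _ h
      exact smul_left_cancel g h
    · intro b hb
      rw [Finset.mem_filter] at hb
      refine ⟨g⁻¹ • b, ?_, smul_inv_smul g b⟩
      rw [Finset.mem_filter]
      refine ⟨Finset.mem_univ _, ?_⟩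
      rw [hf, hb.2, hfω, MulAction.Quotient.smul_coe, smul_eq_mul, inv_mul_cancel]
  set k := (Finset.univ.filter (fun ω' => f ω' = f ω)).card with hk
  have e1 : Nat.card Ω = Nat.card (G ⧸ M) * k := by
    rw [Nat.card_eq_fintype_card, Nat.card_eq_fintype_card, ← Finset.card_univ,
      Finset.card_eq_sum_card_fiberwise (f := f) (t := Finset.univ) (fun _ _ => Finset.mem_coe.2 (Finset.mem_univ _)),
      Finset.sum_congr rfl (fun c _ => hfib c), Finset.sum_const, smul_eq_mul, Finset.card_univ]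
  have e2 : Nat.card (fixedBy Ω x) ≤ Nat.card (fixedBy (G ⧸ M) x) * k := by
    have h1 : Nat.card (fixedBy Ω x) = (Finset.univ.filter (fun ω' : Ω => x • ω' = ω')).card := by
      rw [Nat.card_eq_fintype_card, ← Set.toFinset_card]
      congr 1
      ext a
      simp [mem_fixedBy]
    have h2 : Nat.card (fixedBy (G ⧸ M) x) = (Finset.univ.filter (fun c : G ⧸ M => x • c = c)).card := by
      rw [Nat.card_eq_fintype_card, ← Set.toFinset_card]
      congr 1
      ext a
      simp [mem_fixedBy]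
    rw [h1, h2, Finset.card_eq_sum_card_fiberwise (f := f) (t := Finset.univ.filter (fun c : G ⧸ M => x • c = c))]
    · rw [← smul_eq_mul, ← Finset.sum_const]
      apply Finset.sum_le_sum
      intro c _
      rw [← hfib c]
      apply Finset.card_le_card
      intro a ha
      rw [Finset.mem_filter] at ha ⊢
      exact ⟨Finset.mem_univ _, ha.2⟩
    · intro a ha
      simp only [Finset.coe_filter, Finset.mem_univ, true_and, Set.mem_setOf_eq] at ha ⊢
      rw [← hf, ha]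
  calc p * Nat.card (fixedBy Ω x) ≤ p * (Nat.card (fixedBy (G ⧸ M) x) * k) := Nat.mul_le_mul_left _ e2
    _ = (p * Nat.card (fixedBy (G ⧸ M) x)) * k := by ring
    _ ≤ Nat.card (G ⧸ M) * k := Nat.mul_le_mul_right _ hcore
    _ = Nat.card Ω := e1.symm

/-- weighted form -/
theorem weighted [Group.IsSolvable G] {p : ℕ} [hp : Fact p.Prime] {x : G}
    (hx : x ^ p = 1) (hgen : normalClosure ({x} : Set G) = ⊤) [Fintype Ω] [DecidableEq Ω] (w : Ω → ℕ)
    (hw : ∀ (g : G) (ω : Ω), w (g • ω) = w ω) (hnf : ∀ ω : Ω, ∃ g : G, g • ω ≠ ω) :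
    p * ∑ ω ∈ Finset.univ.filter (fun ω : Ω => x • ω = ω), w ω ≤ ∑ ω : Ω, w ω := by
  classical
  have : Fintype (orbitRel.Quotient G Ω) := Fintype.ofFinite _
  let π : Ω → orbitRel.Quotient G Ω := fun ω => Quotient.mk _ ω
  rw [← Finset.sum_fiberwise Finset.univ π w, ← Finset.sum_fiberwise (Finset.univ.filter (fun ω : Ω => x • ω = ω)) π w,
    Finset.mul_sum]
  apply Finset.sum_le_sum
  intro c _
  obtain ⟨ω, rfl⟩ := Quotient.exists_rep c
  have hπ : ∀ a : Ω, π a = Quotient.mk _ ω ↔ a ∈ orbit G ω := by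
    intro a
    exact Quotient.eq.trans Iff.rfl
  have hconst : ∀ a : Ω, π a = Quotient.mk _ ω → w a = w ω := by
    intro a ha
    obtain ⟨g, rfl⟩ := (hπ a).1 ha
    exact hw g ω
  have e1 : ∑ i ∈ Finset.univ.filter (fun j => π j = Quotient.mk _ ω), w i =
      (Finset.univ.filter (fun j => π j = Quotient.mk _ ω)).card * w ω := by
    rw [Finset.sum_congr rfl (fun a ha => hconst a (Finset.mem_filter.1 ha).2), Finset.sum_const, smul_eq_mul]
  have e2 : ∑ i ∈ (Finset.univ.filter (fun ω : Ω => x • ω = ω)).filter (fun j => π j = Quotient.mk _ ω), w i =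
      ((Finset.univ.filter (fun ω : Ω => x • ω = ω)).filter (fun j => π j = Quotient.mk _ ω)).card * w ω := by
    rw [Finset.sum_congr rfl (fun a ha => hconst a (Finset.mem_filter.1 ha).2), Finset.sum_const, smul_eq_mul]
  rw [e1, e2, ← mul_assoc]
  apply Nat.mul_le_mul_right
  -- the orbit
  have h1 : 1 < Nat.card (orbit G ω) := by
    rw [Finite.one_lt_card_iff_nontrivial]
    obtain ⟨g, hg⟩ := hnf ω
    refine ⟨⟨g • ω, ⟨g, rfl⟩⟩, ⟨ω, mem_orbit_self ω⟩, ?_⟩
    intro h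
    exact hg (congrArg Subtype.val h)
  have h2 := trans_case (Ω := orbit G ω) hx hgen h1
  have h3 : Nat.card (orbit G ω) = (Finset.univ.filter (fun j => π j = Quotient.mk _ ω)).card := by
    rw [Nat.card_eq_fintype_card, ← Set.toFinset_card]
    congr 1
    ext a
    rw [Set.mem_toFinset, Finset.mem_filter, hπ]
    simp
  have h4 : Nat.card (fixedBy (orbit G ω) x) =
      ((Finset.univ.filter (fun ω : Ω => x • ω = ω)).filter (fun j => π j = Quotient.mk _ ω)).card := by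
    rw [Nat.card_eq_fintype_card, ← Finset.card_univ]
    apply Finset.card_bij (fun (a : fixedBy (orbit G ω) x) _ => ((a : orbit G ω) : Ω))
    · intro a _
      rw [Finset.mem_filter, Finset.mem_filter, hπ]
      exact ⟨⟨Finset.mem_univ _, congrArg Subtype.val a.2⟩, a.1.2⟩
    · intro a _ b _ h
      exact Subtype.ext (Subtype.ext h)
    · intro b hb
      rw [Finset.mem_filter, Finset.mem_filter, hπ] at hb
      exact ⟨⟨⟨b, hb.2⟩, Subtype.ext hb.1.2⟩, Finset.mem_univ _, rfl⟩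
  rw [← h3, ← h4]
  exact h2

end Cfsg.Agent.Lib.H12Fix
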