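import Cfsg.Agent.Lib.H12Fix1

/-! Dimension of the fixed space of an operator of prime order permuting the summands of a decomposition. -/

set_option autoImplicit false
set_option maxHeartbeats 400000

namespace Cfsg.Agent.Lib.H12Fix

open Module

section Sum

variable {Ω : Type*} [Fintype Ω] [DecidableEq Ω]

theorem pow_mod_apply {p : ℕ} (σ : Equiv.Perm Ω) (hσ : σ ^ p = 1) (j : ℕ) (a : Ω) : (σ ^ (j % p)) a = (σ ^ j) a := by
  conv_rhs => rw [← Nat.div_add_mod j p, pow_add, pow_mul, hσ, one_pow, one_mul]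

theorem exists_transversal {p : ℕ} [hp : Fact p.Prime] (σ : Equiv.Perm Ω) (hσ : σ ^ p = 1) :
    ∃ R : Finset Ω, (∀ ω ∈ R, σ ω ≠ ω) ∧ (∀ ω, σ ω ≠ ω → ∃ ρ ∈ R, ∃ j : ℕ, (σ ^ j) ρ = ω) ∧
      ∀ f : Ω → ℕ, (∀ ω, f (σ ω) = f ω) → p * ∑ ω ∈ R, f ω = ∑ ω ∈ Finset.univ.filter (fun ω => σ ω ≠ ω), f ω := by
  classical
  have hp0 : 0 < p := hp.out.pos
  let s : Setoid Ω :=
    { r := fun a b => ∃ j : ℕ, (σ ^ j) a = b
      iseqv := by
        refine ⟨fun a => ⟨0, rfl⟩, ?_, ?_⟩
        · rintro a b ⟨j, rfl⟩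
          refine ⟨(p - 1) * j, ?_⟩
          rw [← Equiv.Perm.mul_apply, ← pow_add]
          have : (p - 1) * j + j = p * j := by
            obtain ⟨q, hq⟩ : ∃ q, p = q + 1 := ⟨p - 1, by omega⟩
            rw [hq]; simp; ring
          rw [this, pow_mul, hσ, one_pow]; rfl
        · rintro a b c ⟨i, rfl⟩ ⟨j, rfl⟩
          exact ⟨j + i, by rw [pow_add]; rfl⟩ }
  let rep : Ω → Ω := fun ω => (Quotient.mk s ω).out
  have hrep : ∀ ω, ∃ j : ℕ, (σ ^ j) (rep ω) = ω := fun ω => Quotient.mk_out (s := s) ω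
  have hrep2 : ∀ a b, (∃ j : ℕ, (σ ^ j) a = b) → rep a = rep b := by
    intro a b h
    show (Quotient.mk s a).out = (Quotient.mk s b).out
    rw [Quotient.sound (s := s) h]
  have hmv : ∀ ω, ∀ j : ℕ, σ ω ≠ ω → σ ((σ ^ j) ω) ≠ (σ ^ j) ω := by
    intro ω j h h2
    apply h
    apply (σ ^ j).injective
    rw [← h2, ← Equiv.Perm.mul_apply, ← Equiv.Perm.mul_apply, ← pow_succ, ← pow_succ']
  let R := Finset.univ.filter (fun ω => σ ω ≠ ω ∧ rep ω = ω)
  have hR : ∀ ω, ω ∈ R ↔ σ ω ≠ ω ∧ rep ω = ω := by intro ω; simp [R]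
  have hcov : ∀ ω, σ ω ≠ ω → ∃ ρ ∈ R, ∃ j : ℕ, (σ ^ j) ρ = ω := by
    intro ω hω
    obtain ⟨j, hj⟩ := hrep ω
    refine ⟨rep ω, (hR _).2 ⟨?_, hrep2 _ _ ⟨j, hj⟩⟩, j, hj⟩
    intro h
    apply hω
    have : ∀ i : ℕ, (σ ^ i) (rep ω) = rep ω := by
      intro i
      induction i with
      | zero => rfl
      | succ i ih => rw [pow_succ, Equiv.Perm.mul_apply, h, ih]
    rw [this j] at hj
    rw [← hj]
    exact h
  refine ⟨R, fun ω hω => ((hR ω).1 hω).1, hcov, ?_⟩
  intro f hf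
  have hfj : ∀ j : ℕ, ∀ ω, f ((σ ^ j) ω) = f ω := by
    intro j
    induction j with
    | zero => intro ω; rfl
    | succ j ih => intro ω; rw [pow_succ', Equiv.Perm.mul_apply, hf, ih]
  have hset : Finset.univ.filter (fun ω => σ ω ≠ ω) = R.biUnion (fun ρ => (Finset.range p).image (fun j => (σ ^ j) ρ)) := by
    ext ω
    rw [Finset.mem_filter, Finset.mem_biUnion]
    constructor
    · rintro ⟨-, h⟩
      obtain ⟨ρ, hρ, j, hj⟩ := hcov ω h
      refine ⟨ρ, hρ, ?_⟩
      rw [Finset.mem_image]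
      refine ⟨j % p, Finset.mem_range.2 (Nat.mod_lt _ hp0), ?_⟩
      rw [pow_mod_apply σ hσ, hj]
    · rintro ⟨ρ, hρ, h⟩
      rw [Finset.mem_image] at h
      obtain ⟨j, -, rfl⟩ := h
      exact ⟨Finset.mem_univ _, hmv ρ j ((hR ρ).1 hρ).1⟩
  rw [hset, Finset.sum_biUnion]
  · rw [Finset.mul_sum]
    apply Finset.sum_congr rfl
    intro ρ hρ
    rw [Finset.sum_image, Finset.sum_congr rfl (fun j _ => hfj j ρ), Finset.sum_const, Finset.card_range, smul_eq_mul]
    -- injectivity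
    have key : ∀ i j : ℕ, i < j → j < p → (σ ^ i) ρ ≠ (σ ^ j) ρ := by
      intro i j hij hjp h
      have h1 : (σ ^ (j - i)) ρ = ρ := by
        apply (σ ^ i).injective
        rw [← Equiv.Perm.mul_apply, ← pow_add, Nat.add_sub_cancel' hij.le]
        exact h.symm
      have hcop : Nat.Coprime (j - i) p := by
        rw [Nat.coprime_comm, (hp.out).coprime_iff_not_dvd]
        intro hd
        have := Nat.le_of_dvd (by omega) hd
        omega
      have h2 : σ ∈ Subgroup.zpowers (σ ^ (j - i)) := by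
        have ho : orderOf σ ∣ p := orderOf_dvd_of_pow_eq_one hσ
        have hc : Nat.Coprime (orderOf σ) (j - i) := (Nat.Coprime.coprime_dvd_right ho hcop).symm
        obtain ⟨m, hm⟩ := exists_pow_eq_self_of_coprime hc.symm
        refine ⟨(m : ℤ), ?_⟩
        show (σ ^ (j - i)) ^ (m : ℤ) = σ
        rw [zpow_natCast]; exact hm
      obtain ⟨m, hm⟩ := h2
      have h3 : ∀ m : ℤ, ((σ ^ (j - i)) ^ m) ρ = ρ := by
        intro m
        exact Equiv.Perm.zpow_apply_eq_self_of_apply_eq_self h1 m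
      apply ((hR ρ).1 hρ).1
      have hm' : (σ ^ (j - i)) ^ m = σ := hm
      rw [← hm']
      exact h3 m
    intro i hi j hj h
    rw [Finset.mem_coe, Finset.mem_range] at hi hj
    rcases lt_trichotomy i j with h1 | h1 | h1
    · exact absurd h (key i j h1 hj)
    · exact h1
    · exact absurd h.symm (key j i h1 hi)
  · intro a ha b hb hab
    rw [Function.onFun, Finset.disjoint_left]
    intro ω h1 h2
    rw [Finset.mem_image] at h1 h2
    obtain ⟨i, -, hi⟩ := h1
    obtain ⟨j, -, hj⟩ := h2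
    apply hab
    have e1 := hrep2 a ω ⟨i, hi⟩
    have e2 := hrep2 b ω ⟨j, hj⟩
    rw [← ((hR a).1 ha).2, ← ((hR b).1 hb).2, e1, e2]

end Sum

section Dec

variable {K : Type*} [Field K] {V : Type*} [AddCommGroup V] [Module K V] [FiniteDimensional K V]
  {Ω : Type*} [Fintype Ω] [DecidableEq Ω]

/-- the sum map -/
def sumMap (S : Ω → Submodule K V) : (∀ ω, S ω) →ₗ[K] V := ∑ ω, (S ω).subtype ∘ₗ LinearMap.proj ω

theorem sumMap_apply (S : Ω → Submodule K V) (c : ∀ ω, S ω) : sumMap S c = ∑ ω, (c ω : V) := by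
  simp [sumMap]

/-- decomposition into summands -/
def Dec (S : Ω → Submodule K V) : Prop := Function.Bijective (sumMap S)

/-- the components -/
noncomputable def Dec.comp {S : Ω → Submodule K V} (h : Dec S) : V ≃ₗ[K] (∀ ω, S ω) :=
  (LinearEquiv.ofBijective (sumMap S) h).symm

theorem Dec.sum_comp {S : Ω → Submodule K V} (h : Dec S) (v : V) : ∑ ω, (h.comp v ω : V) = v := by
  rw [← sumMap_apply]
  exact (LinearEquiv.ofBijective (sumMap S) h).apply_symm_apply v

theorem Dec.comp_eq {S : Ω → Submodule K V} (h : Dec S) (v : V) (c : ∀ ω, S ω) (hc : ∑ ω, (c ω : V) = v) :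
    h.comp v = c := by
  rw [← hc, ← sumMap_apply]
  exact (LinearEquiv.ofBijective (sumMap S) h).symm_apply_apply c

theorem Dec.finrank {S : Ω → Submodule K V} (h : Dec S) : finrank K V = ∑ ω, finrank K (S ω) := by
  rw [h.comp.finrank_eq, Module.finrank_pi_fintype]

theorem Dec.comp_perm {S : Ω → Submodule K V} (h : Dec S) (x : V →ₗ[K] V) (σ : Equiv.Perm Ω)
    (hx : ∀ ω, ∀ v ∈ S ω, x v ∈ S (σ ω)) (v : V) (ω : Ω) : ((h.comp (x v)) (σ ω) : V) = x (h.comp v ω) := by
  have h1 : h.comp (x v) = fun ω => ⟨x (h.comp v (σ.symm ω)), by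
      have := hx (σ.symm ω) _ (h.comp v (σ.symm ω)).2
      rwa [Equiv.apply_symm_apply] at this⟩ := by
    apply h.comp_eq
    show ∑ ω, x (h.comp v (σ.symm ω)) = x v
    rw [← map_sum]
    congr 1
    rw [Equiv.sum_comp σ.symm (fun ω => (h.comp v ω : V))]
    exact h.sum_comp v
  rw [h1]
  show x (h.comp v (σ.symm (σ ω))) = _
  rw [Equiv.symm_apply_apply]

/-- the main dimension formula (inequality) -/
theorem Dec.fix {S : Ω → Submodule K V} (h : Dec S) {p : ℕ} [hp : Fact p.Prime] (x : V →ₗ[K] V) (σ : Equiv.Perm Ω)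
    (hx : ∀ ω, ∀ v ∈ S ω, x v ∈ S (σ ω)) (hxp : ∀ v, (x ^ p) v = v) (hσ : σ ^ p = 1) (C : Submodule K V)
    (hC : ∀ v, v ∈ C ↔ x v = v) :
    p * Module.finrank K C ≤ p * ∑ ω ∈ Finset.univ.filter (fun ω => σ ω = ω), Module.finrank K (C ⊓ S ω : Submodule K V) +
      ∑ ω ∈ Finset.univ.filter (fun ω => σ ω ≠ ω), Module.finrank K (S ω) := by
  classical
  obtain ⟨R, hR1, hR2, hR3⟩ := exists_transversal (p := p) σ hσ
  have hxinj : Function.Injective x := by
    have hp1 : p = (p - 1) + 1 := by have := hp.out.pos; omega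
    intro a b hab
    rw [← hxp a, ← hxp b, hp1, pow_succ, Module.End.mul_apply, Module.End.mul_apply, hab]
  have hle : ∀ ω, Module.finrank K (S ω) ≤ Module.finrank K (S (σ ω)) := by
    intro ω
    let g : S ω →ₗ[K] S (σ ω) := (x ∘ₗ (S ω).subtype).codRestrict (S (σ ω)) (fun v => hx ω v v.2)
    apply LinearMap.finrank_le_finrank_of_injective (f := g)
    intro a b hab
    apply Subtype.ext
    apply hxinj
    exact congrArg Subtype.val hab
  have hfr : ∀ ω, Module.finrank K (S (σ ω)) = Module.finrank K (S ω) := by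
    intro ω
    apply le_antisymm _ (hle ω)
    have h1 : ∀ j : ℕ, Module.finrank K (S (σ ω)) ≤ Module.finrank K (S ((σ ^ j) (σ ω))) := by
      intro j
      induction j with
      | zero => exact le_rfl
      | succ j ih =>
        rw [pow_succ', Equiv.Perm.mul_apply]
        exact ih.trans (hle _)
    have h2 := h1 (p - 1)
    have h3 : (σ ^ (p - 1)) (σ ω) = ω := by
      rw [← Equiv.Perm.mul_apply, ← pow_succ, Nat.sub_add_cancel hp.out.pos, hσ]; rfl
    rwa [h3] at h2
  rw [← hR3 (fun ω => Module.finrank K (S ω)) hfr, ← Nat.mul_add]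
  apply Nat.mul_le_mul_left
  -- the injection
  let F := {ω : Ω // σ ω = ω}
  have hcomp : ∀ v ∈ C, ∀ ω, (h.comp v (σ ω) : V) = x (h.comp v ω) := by
    intro v hv ω
    have := h.comp_perm x σ hx v ω
    rwa [(hC v).1 hv] at this
  have hfix : ∀ v ∈ C, ∀ ω : F, (h.comp v ω : V) ∈ (C ⊓ S ω : Submodule K V) := by
    intro v hv ω
    refine ⟨?_, (h.comp v ω).2⟩
    refine (hC _).2 ?_
    have := hcomp v hv ω
    have e : (h.comp v (σ ω) : V) = h.comp v ω := by rw [ω.2]
    rw [← this, e]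
  let hc : ∀ ω : Ω, C →ₗ[K] S ω := fun ω =>
    { toFun := fun v => h.comp (v : V) ω
      map_add' := by intro a b; simp
      map_smul' := by intro a b; simp }
  let g1 : C →ₗ[K] (∀ ω : F, (C ⊓ S ω : Submodule K V)) :=
    LinearMap.pi (fun ω => ((S (ω : Ω)).subtype ∘ₗ hc ω).codRestrict
      (C ⊓ S ω : Submodule K V) (fun v => hfix v v.2 ω))
  let g2 : C →ₗ[K] (∀ ω : R, S (ω : Ω)) :=
    LinearMap.pi (fun ω => hc ω)
  let g : C →ₗ[K] (∀ ω : F, (C ⊓ S ω : Submodule K V)) × (∀ ω : R, S (ω : Ω)) := g1.prod g2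
  have hg : Function.Injective g := by
    rw [← LinearMap.ker_eq_bot, LinearMap.ker_eq_bot']
    intro v hv
    have hv1 : g1 v = 0 := (Prod.ext_iff.1 hv).1
    have hv2 : g2 v = 0 := (Prod.ext_iff.1 hv).2
    have hz : ∀ ω, (h.comp (v : V) ω : V) = 0 := by
      intro ω
      by_cases hω : σ ω = ω
      · have := congrFun hv1 ⟨ω, hω⟩
        exact congrArg Subtype.val this
      · obtain ⟨ρ, hρ, j, hj⟩ := hR2 ω hω
        have h0 : (h.comp (v : V) ρ : V) = 0 := by
          have := congrFun hv2 ⟨ρ, hρ⟩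
          exact congrArg Subtype.val this
        rw [← hj]
        clear hj
        induction j with
        | zero => exact h0
        | succ j ih => rw [pow_succ', Equiv.Perm.mul_apply, hcomp v v.2, ih, map_zero]
    apply Subtype.ext
    rw [← h.sum_comp (v : V)]
    exact Finset.sum_eq_zero (fun ω _ => hz ω)
  have hf := LinearMap.finrank_le_finrank_of_injective hg
  rw [Module.finrank_prod, Module.finrank_pi_fintype, Module.finrank_pi_fintype] at hf
  refine hf.trans (le_of_eq ?_)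
  congr 1
  · rw [Finset.sum_subtype (Finset.univ.filter (fun ω => σ ω = ω)) (p := fun ω => σ ω = ω) (by intro ω; simp)]
  · exact Finset.sum_coe_sort R (fun ω => Module.finrank K (S ω))

end Dec

end Cfsg.Agent.Lib.H12Fix
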