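import Cfsg.Agent.Lib.H12Fix2
import Cfsg.Agent.Lib.HHWt

/-! Weight decompositions of a finite group acting through commuting operators. -/

set_option autoImplicit false
set_option maxHeartbeats 400000

namespace Cfsg.Agent.Lib.H12Fix

open Module

section Ws

variable {K : Type*} [Field K] {V : Type*} [AddCommGroup V] [Module K V] {A : Type*} [Group A]

/-- weight space -/
def ws (τ : A →* Module.End K V) (l : A → K) : Submodule K V := ⨅ a, (τ a).eigenspace (l a)

theorem mem_ws {τ : A →* Module.End K V} {l : A → K} {v : V} : v ∈ ws τ l ↔ ∀ a, τ a v = l a • v := by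
  rw [ws, Submodule.mem_iInf]
  exact forall_congr' fun a => Module.End.mem_eigenspace_iff

theorem ws_eq [FiniteDimensional K V] [Finite A] (τ : A →* Module.End K V) (hA : (Nat.card A : K) ≠ 0) (l : A → K) :
    ws τ l = ⨅ a, (τ a).maxGenEigenspace (l a) := by
  rw [ws]
  congr 1
  funext a
  refine (HHWt.maxGen_eq (τ a) (Nat.card A) hA ?_ (l a)).symm
  rw [← map_pow, pow_card_eq_one', map_one]

theorem ws_indep [FiniteDimensional K V] [Finite A] (τ : A →* Module.End K V) (hA : (Nat.card A : K) ≠ 0)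
    (hcomm : ∀ a b, τ a * τ b = τ b * τ a) : iSupIndep (fun l => ws τ l) := by
  simp_rw [ws_eq τ hA]
  apply Module.End.independent_iInf_maxGenEigenspace_of_forall_mapsTo
  intro i j φ
  exact Module.End.mapsTo_maxGenEigenspace_of_comm (hcomm j i) φ

theorem ws_top [IsAlgClosed K] [FiniteDimensional K V] [Finite A] (τ : A →* Module.End K V) (hA : (Nat.card A : K) ≠ 0)
    (hcomm : ∀ a b, τ a * τ b = τ b * τ a) : ⨆ l : A → K, ws τ l = ⊤ := by
  simp_rw [ws_eq τ hA]
  exact Module.End.iSup_iInf_maxGenEigenspace_eq_top_of_iSup_maxGenEigenspace_eq_top_of_commute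
    (fun a : A => τ a) (fun a b _ => hcomm a b) (fun a => Module.End.iSup_maxGenEigenspace_eq_top _)

theorem ws_finite [FiniteDimensional K V] [Finite A] (τ : A →* Module.End K V) (hA : (Nat.card A : K) ≠ 0)
    (hcomm : ∀ a b, τ a * τ b = τ b * τ a) : Finite {l : A → K // ws τ l ≠ ⊥} :=
  (WellFoundedGT.finite_ne_bot_of_iSupIndep (ws_indep τ hA hcomm)).to_subtype

theorem dec_of_indep [FiniteDimensional K V] {Ω : Type*} [Fintype Ω] [DecidableEq Ω] (S : Ω → Submodule K V)
    (h1 : iSupIndep S) (h2 : ⨆ ω, S ω = ⊤) : Dec S := by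
  constructor
  · rw [← LinearMap.ker_eq_bot, LinearMap.ker_eq_bot']
    intro c hc
    rw [sumMap_apply] at hc
    funext ω
    apply Subtype.ext
    exact (iSupIndep_iff_finsetSum_eq_zero_imp_eq_zero S).1 h1 Finset.univ (fun ω => (c ω : V)) (fun ω _ => (c ω).2) hc ω
      (Finset.mem_univ _)
  · rw [← LinearMap.range_eq_top, eq_top_iff, ← h2, iSup_le_iff]
    intro ω v hv
    refine ⟨Pi.single ω ⟨v, hv⟩, ?_⟩
    rw [sumMap_apply, Finset.sum_eq_single ω]
    · rw [Pi.single_eq_same]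
    · intro b _ hb
      rw [Pi.single_eq_of_ne hb]; rfl
    · intro h; exact absurd (Finset.mem_univ _) h

theorem ws_dec [IsAlgClosed K] [FiniteDimensional K V] [Finite A] (τ : A →* Module.End K V) (hA : (Nat.card A : K) ≠ 0)
    (hcomm : ∀ a b, τ a * τ b = τ b * τ a) [Fintype {l : A → K // ws τ l ≠ ⊥}] [DecidableEq {l : A → K // ws τ l ≠ ⊥}] :
    Dec (fun ω : {l : A → K // ws τ l ≠ ⊥} => ws τ ω) := by
  apply dec_of_indep
  · exact (ws_indep τ hA hcomm).comp Subtype.val_injective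
  · rw [eq_top_iff, ← ws_top τ hA hcomm, iSup_le_iff]
    intro l
    by_cases h : ws τ l = ⊥
    · rw [h]; exact bot_le
    · exact le_iSup (fun ω : {l : A → K // ws τ l ≠ ⊥} => ws τ ω) ⟨l, h⟩

/-- an intertwining operator permutes the weights -/
theorem map_ws (τ : A →* Module.End K V) (Y : Module.End K V) (φ : A → A) (ψ : A → A) (hφψ : ∀ a, φ (ψ a) = a)
    (hY : ∀ a v, Y (τ a v) = τ (φ a) (Y v)) {l : A → K} {v : V} (hv : v ∈ ws τ l) :
    Y v ∈ ws τ (fun a => l (ψ a)) := by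
  rw [mem_ws] at hv ⊢
  intro a
  have := hY (ψ a) v
  rw [hφψ, hv, map_smul] at this
  exact this.symm

theorem ws_ne_bot (τ : A →* Module.End K V) (Y : Module.End K V) (hYi : Function.Injective Y) (φ : A → A) (ψ : A → A)
    (hφψ : ∀ a, φ (ψ a) = a) (hY : ∀ a v, Y (τ a v) = τ (φ a) (Y v)) {l : A → K} (hl : ws τ l ≠ ⊥) :
    ws τ (fun a => l (ψ a)) ≠ ⊥ := by
  obtain ⟨v, hv, hv0⟩ := (Submodule.ne_bot_iff _).1 hl
  rw [Submodule.ne_bot_iff]
  refine ⟨Y v, map_ws τ Y φ ψ hφψ hY hv, ?_⟩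
  intro h
  exact hv0 (hYi (h.trans (map_zero Y).symm))

end Ws

end Cfsg.Agent.Lib.H12Fix
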