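import Cfsg.Agent.Lib.H12Fix3

/-! The fixed space of an element of prime order: the case of an abelian normal subgroup. -/

set_option autoImplicit false
set_option maxHeartbeats 400000

namespace Cfsg.Agent.Lib.H12Fix

open Module MulAction

section Abel

variable {K : Type*} [Field K] {V : Type*} [AddCommGroup V] [Module K V] {G : Type*} [Group G]

/-- restriction to a subgroup -/
def resE (ρ : G →* Module.End K V) (E : Subgroup G) : E →* Module.End K V := ρ.comp E.subtype

/-- the weights of a normal subgroup -/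
abbrev Wts (ρ : G →* Module.End K V) (E : Subgroup G) := {l : E → K // ws (resE ρ E) l ≠ ⊥}

theorem inj_of_group (ρ : G →* Module.End K V) (g : G) : Function.Injective (ρ g) := by
  intro a b h
  have h1 : ρ g⁻¹ (ρ g a) = ρ g⁻¹ (ρ g b) := by rw [h]
  rwa [← Module.End.mul_apply, ← Module.End.mul_apply, ← map_mul, inv_mul_cancel, map_one, Module.End.one_apply,
    Module.End.one_apply] at h1

theorem conj_eq (ρ : G →* Module.End K V) (E : Subgroup G) [E.Normal] (g : G) (a : E) (v : V) :
    ρ g (resE ρ E a v) = resE ρ E (MulAut.conjNormal g a) (ρ g v) := by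
  show ρ g (ρ (a : G) v) = ρ ((MulAut.conjNormal g a : E) : G) (ρ g v)
  rw [MulAut.conjNormal_apply, ← Module.End.mul_apply, ← Module.End.mul_apply, ← map_mul, ← map_mul]
  congr 2
  group

theorem conj_inv (E : Subgroup G) [E.Normal] (g : G) (a : E) :
    MulAut.conjNormal g (MulAut.conjNormal g⁻¹ a) = a := by
  rw [← MulAut.mul_apply, ← map_mul, mul_inv_cancel, map_one]; rfl

/-- action of the group on the weights -/
instance wtsAction (ρ : G →* Module.End K V) (E : Subgroup G) [E.Normal] : MulAction G (Wts ρ E) where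
  smul g l := ⟨fun e => l.1 (MulAut.conjNormal g⁻¹ e), ws_ne_bot (resE ρ E) (ρ g) (inj_of_group ρ g)
    (MulAut.conjNormal g) (MulAut.conjNormal g⁻¹) (conj_inv E g) (conj_eq ρ E g) l.2⟩
  one_smul l := by
    apply Subtype.ext
    funext e
    show l.1 (MulAut.conjNormal (1 : G)⁻¹ e) = l.1 e
    rw [inv_one, map_one]; rfl
  mul_smul g h l := by
    apply Subtype.ext
    funext e
    show l.1 (MulAut.conjNormal (g * h)⁻¹ e) = l.1 (MulAut.conjNormal h⁻¹ (MulAut.conjNormal g⁻¹ e))
    rw [mul_inv_rev, map_mul]; rfl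

theorem wts_smul (ρ : G →* Module.End K V) (E : Subgroup G) [E.Normal] (g : G) (l : Wts ρ E) :
    (g • l).1 = fun e => l.1 (MulAut.conjNormal g⁻¹ e) := rfl

theorem smul_mem (ρ : G →* Module.End K V) (E : Subgroup G) [E.Normal] (g : G) (l : Wts ρ E) {v : V}
    (hv : v ∈ ws (resE ρ E) l.1) : ρ g v ∈ ws (resE ρ E) (g • l).1 :=
  map_ws (resE ρ E) (ρ g) (MulAut.conjNormal g) (MulAut.conjNormal g⁻¹) (conj_inv E g) (conj_eq ρ E g) hv

theorem finrank_smul [FiniteDimensional K V] (ρ : G →* Module.End K V) (E : Subgroup G) [E.Normal] (g : G) (l : Wts ρ E) :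
    Module.finrank K (ws (resE ρ E) (g • l).1) = Module.finrank K (ws (resE ρ E) l.1) := by
  have key : ∀ (g : G) (l : Wts ρ E),
      Module.finrank K (ws (resE ρ E) l.1) ≤ Module.finrank K (ws (resE ρ E) (g • l).1) := by
    intro g l
    let f : ws (resE ρ E) l.1 →ₗ[K] ws (resE ρ E) (g • l).1 :=
      (ρ g ∘ₗ (ws (resE ρ E) l.1).subtype).codRestrict _ (fun v => smul_mem ρ E g l v.2)
    apply LinearMap.finrank_le_finrank_of_injective (f := f)
    intro a b hab
    apply Subtype.ext
    exact inj_of_group ρ g (congrArg Subtype.val hab)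
  apply le_antisymm _ (key g l)
  have := key g⁻¹ (g • l)
  rwa [inv_smul_smul] at this

theorem abelian_case [IsAlgClosed K] [FiniteDimensional K V] [Nontrivial V] [Finite G] [Group.IsSolvable G]
    {p : ℕ} [hp : Fact p.Prime] (hp3 : 3 < p) (ρ : G →* Module.End K V) {x : G} (hx : x ^ p = 1)
    (hgen : Subgroup.normalClosure ({x} : Set G) = ⊤) (E : Subgroup G) [E.Normal] (hE : (Nat.card E : K) ≠ 0)
    (hab : ∀ a ∈ E, ∀ b ∈ E, a * b = b * a)
    (hnf : ∀ l : Wts ρ E, ∃ g : G, g • l ≠ l) (C : Submodule K V) (hC : ∀ v, v ∈ C ↔ ρ x v = v) :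
    2 * Module.finrank K C < Module.finrank K V := by
  classical
  have hcomm : ∀ a b : E, resE ρ E a * resE ρ E b = resE ρ E b * resE ρ E a := by
    intro a b
    rw [← map_mul, ← map_mul]
    congr 1
    exact Subtype.ext (hab a a.2 b b.2)
  have : Finite (Wts ρ E) := ws_finite _ hE hcomm
  have : Fintype (Wts ρ E) := Fintype.ofFinite _
  have hdec : Dec (fun ω : Wts ρ E => ws (resE ρ E) ω.1) := ws_dec _ hE hcomm
  have h1 := weighted hx hgen (fun ω : Wts ρ E => Module.finrank K (ws (resE ρ E) ω.1)) (fun g l => finrank_smul ρ E g l) hnf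
  have h2 := hdec.finrank
  have h3 := hdec.fix (p := p) (ρ x) (MulAction.toPermHom G (Wts ρ E) x)
    (fun ω v hv => smul_mem ρ E x ω hv) (by
      intro v
      rw [← map_pow, hx, map_one]; rfl) (by rw [← map_pow, hx, map_one]) C hC
  have h4 : ∀ ω : Wts ρ E, MulAction.toPermHom G (Wts ρ E) x ω = x • ω := fun ω => rfl
  simp only [h4] at h3
  rw [← h2] at h1
  set F := ∑ ω ∈ Finset.univ.filter (fun ω : Wts ρ E => x • ω = ω), Module.finrank K (ws (resE ρ E) ω.1) with hF
  set N := ∑ ω ∈ Finset.univ.filter (fun ω : Wts ρ E => ¬ x • ω = ω), Module.finrank K (ws (resE ρ E) ω.1) with hN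
  have h5 : F + N = Module.finrank K V := by
    rw [h2]
    exact Finset.sum_filter_add_sum_filter_not _ _ _
  have h6 : ∑ ω ∈ Finset.univ.filter (fun ω : Wts ρ E => x • ω = ω), Module.finrank K (C ⊓ ws (resE ρ E) ω.1 : Submodule K V) ≤ F :=
    Finset.sum_le_sum (fun ω _ => Submodule.finrank_mono inf_le_right)
  have h7 : p * Module.finrank K C ≤ p * F + N := h3.trans (Nat.add_le_add_right (Nat.mul_le_mul_left _ h6) _)
  have hd : 0 < Module.finrank K V := Module.finrank_pos
  generalize Module.finrank K V = d at *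
  generalize Module.finrank K C = r at *
  -- p r ≤ p F + N, F + N = d, p F ≤ d
  nlinarith
end Abel

end Cfsg.Agent.Lib.H12Fix
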