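import Cfsg.Agent.Lib.PStabPair
import Cfsg.Agent.Lib.QdSection
import Cfsg.Agent.Lib.ClSLn

/-! Numerical facts about the action of an element of prime order on a minimal noncentral normal q-subgroup. -/

set_option autoImplicit false
set_option maxHeartbeats 400000

namespace Cfsg.Agent.Lib.H12Fix

open Subgroup

variable {G : Type*} [Group G]

/-- `E` is a nonabelian minimal noncentral normal `q`-subgroup with centre `Z`. -/
structure Ext (E Z : Subgroup G) (q : ℕ) : Prop where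
  nE : E.Normal
  hq : IsPGroup q E
  ZE : Z ≤ E
  cen : ∀ z ∈ Z, ∀ g : G, g * z = z * g
  com : ∀ a ∈ E, ∀ b ∈ E, a * b * a⁻¹ * b⁻¹ ∈ Z
  self : ∀ a ∈ E, (∀ b ∈ E, a * b = b * a) → a ∈ Z
  min : ∀ N : Subgroup G, N.Normal → N ≤ E → N ≠ E → N ≤ Z
  ne : ¬ E ≤ Z

theorem Ext.nZ {E Z : Subgroup G} {q : ℕ} (h : Ext E Z q) : Z.Normal := by
  refine ⟨fun z hz g => ?_⟩
  rw [h.cen z hz g, mul_assoc, mul_inv_cancel, mul_one]
  exact hz

theorem mk_comm_iff {Z : Subgroup G} [Z.Normal] (a b : G) :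
    QuotientGroup.mk' Z a * QuotientGroup.mk' Z b = QuotientGroup.mk' Z b * QuotientGroup.mk' Z a ↔ a * b * a⁻¹ * b⁻¹ ∈ Z := by
  rw [← map_mul, ← map_mul]
  have h : QuotientGroup.mk' Z (a * b * a⁻¹ * b⁻¹) = QuotientGroup.mk' Z (a * b) * (QuotientGroup.mk' Z (b * a))⁻¹ := by
    rw [← map_inv, ← map_mul]; congr 1; group
  rw [← mul_inv_eq_one, ← h]
  constructor
  · intro h1
    rw [← MonoidHom.mem_ker, QuotientGroup.ker_mk'] at h1
    exact h1
  · intro h1
    rw [← MonoidHom.mem_ker, QuotientGroup.ker_mk']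
    exact h1

theorem Ext.no_fixed {E Z : Subgroup G} {q : ℕ} (h : Ext E Z q) {a : G} (ha : a ∈ E)
    (hf : ∀ g : G, g * a * g⁻¹ * a⁻¹ ∈ Z) : a ∈ Z := by
  have hZn := h.nZ
  let N : Subgroup G := Z ⊔ zpowers a
  have hN : N.Normal := by
    refine ⟨fun n hn g => ?_⟩
    have h1 : ∀ k : ℤ, g * a ^ k * g⁻¹ ∈ N := by
      intro k
      rw [← conj_zpow]
      apply zpow_mem
      have : g * a * g⁻¹ = (g * a * g⁻¹ * a⁻¹) * a := by group
      rw [this]
      exact mul_mem (mem_sup_left (hf g)) (mem_sup_right (mem_zpowers a))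
    obtain ⟨z, hz, w, ⟨k, rfl⟩, rfl⟩ := Subgroup.mem_sup_of_normal_left.1 hn
    have : g * (z * a ^ k) * g⁻¹ = (g * z * g⁻¹) * (g * a ^ k * g⁻¹) := by group
    show g * (z * a ^ k) * g⁻¹ ∈ N
    rw [this]
    exact mul_mem (mem_sup_left (hZn.conj_mem z hz g)) (h1 k)
  have hNE : N ≤ E := sup_le h.ZE (by rw [zpowers_le]; exact ha)
  by_cases hne : N = E
  · exfalso
    apply h.ne
    intro e he
    apply h.self e he
    intro f hf
    rw [← hne] at he hf
    obtain ⟨z, hz, w, ⟨k, rfl⟩, rfl⟩ := Subgroup.mem_sup_of_normal_left.1 he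
    obtain ⟨z', hz', w', ⟨k', rfl⟩, rfl⟩ := Subgroup.mem_sup_of_normal_left.1 hf
    have c1 := h.cen z hz
    have c2 := h.cen z' hz'
    have e1 : a ^ k * a ^ k' = a ^ k' * a ^ k := by rw [← zpow_add, ← zpow_add, add_comm]
    show z * a ^ k * (z' * a ^ k') = z' * a ^ k' * (z * a ^ k)
    calc z * a ^ k * (z' * a ^ k') = z * (a ^ k * z') * a ^ k' := by group
      _ = z * (z' * a ^ k) * a ^ k' := by rw [c2]
      _ = (z * z') * (a ^ k * a ^ k') := by group
      _ = (z' * z) * (a ^ k' * a ^ k) := by rw [c2 z, e1]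
      _ = z' * (z * a ^ k') * a ^ k := by group
      _ = z' * (a ^ k' * z) * a ^ k := by rw [c1]
      _ = z' * a ^ k' * (z * a ^ k) := by group
  · exact h.min N hN hNE hne (mem_sup_right (mem_zpowers a))

theorem Ext.moves {E Z : Subgroup G} {q : ℕ} (h : Ext E Z q) {x : G} (hgen : normalClosure ({x} : Set G) = ⊤) :
    ∃ e ∈ E, x * e * x⁻¹ * e⁻¹ ∉ Z := by
  by_contra hcon
  push Not at hcon
  have hZn := h.nZ
  have hEn := h.nE
  have hEm : (E.map (QuotientGroup.mk' Z)).Normal := hEn.map _ (QuotientGroup.mk'_surjective Z)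
  let H : Subgroup G := (Subgroup.centralizer ((E.map (QuotientGroup.mk' Z) : Subgroup _) : Set (G ⧸ Z))).comap (QuotientGroup.mk' Z)
  have hH : ∀ g, g ∈ H ↔ ∀ e ∈ E, g * e * g⁻¹ * e⁻¹ ∈ Z := by
    intro g
    rw [Subgroup.mem_comap, Subgroup.mem_centralizer_iff]
    constructor
    · intro h1 e he
      rw [← mk_comm_iff]
      exact (h1 _ ⟨e, he, rfl⟩).symm
    · rintro h1 _ ⟨e, he, rfl⟩
      exact ((mk_comm_iff g e).2 (h1 e he)).symm
  have hHn : H.Normal := by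
    have : (Subgroup.centralizer ((E.map (QuotientGroup.mk' Z) : Subgroup _) : Set (G ⧸ Z))).Normal :=
      Subgroup.normal_centralizer
    exact this.comap _
  have hHt : H = ⊤ := by
    rw [eq_top_iff, ← hgen]
    apply Subgroup.normalClosure_le_normal
    rw [Set.singleton_subset_iff]
    exact (hH x).2 hcon
  apply h.ne
  intro e he
  apply h.no_fixed he
  intro g
  exact (hH g).1 (by rw [hHt]; trivial) e he

section Arith

/-- commutator -/
def cm (a b : G) : G := a * b * a⁻¹ * b⁻¹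

theorem Ext.cm_mul_left {E Z : Subgroup G} {q : ℕ} (h : Ext E Z q) {a a' b : G} (_ha : a ∈ E) (ha' : a' ∈ E) (hb : b ∈ E) :
    cm (a * a') b = cm a b * cm a' b := by
  have h1 : cm (a * a') b = a * cm a' b * a⁻¹ * cm a b := by simp only [cm]; group
  have h2 := h.cen (cm a' b) (h.com a' ha' b hb)
  rw [h1, h2 a, mul_assoc (cm a' b), mul_inv_cancel, mul_one, h2 (cm a b)]

theorem Ext.cm_mul_right {E Z : Subgroup G} {q : ℕ} (h : Ext E Z q) {a b b' : G} (ha : a ∈ E) (_hb : b ∈ E) (hb' : b' ∈ E) :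
    cm a (b * b') = cm a b * cm a b' := by
  have h1 : cm a (b * b') = cm a b * (b * cm a b' * b⁻¹) := by simp only [cm]; group
  have h2 := h.cen (cm a b') (h.com a ha b' hb')
  rw [h1, h2 b, mul_assoc (cm a b'), mul_inv_cancel, mul_one]

theorem Ext.cm_conj {E Z : Subgroup G} {q : ℕ} (h : Ext E Z q) {a b : G} (ha : a ∈ E) (hb : b ∈ E) (g : G) :
    cm (g * a * g⁻¹) (g * b * g⁻¹) = cm a b := by
  have h1 : cm (g * a * g⁻¹) (g * b * g⁻¹) = g * cm a b * g⁻¹ := by simp only [cm]; group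
  have h2 : g * cm a b = cm a b * g := h.cen (cm a b) (h.com a ha b hb) g
  rw [h1, h2, mul_assoc, mul_inv_cancel, mul_one]

theorem Ext.cm_pow_left {E Z : Subgroup G} {q : ℕ} (h : Ext E Z q) {a b : G} (ha : a ∈ E) (hb : b ∈ E) (k : ℕ) :
    cm (a ^ k) b = (cm a b) ^ k := by
  induction k with
  | zero => simp [cm]
  | succ k ih => rw [pow_succ, pow_succ, h.cm_mul_left (pow_mem ha k) ha hb, ih]

theorem cm_one_left (b : G) : cm 1 b = 1 := by simp [cm]

theorem cm_eq_one_iff {a b : G} : cm a b = 1 ↔ a * b = b * a := by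
  unfold cm
  rw [mul_inv_eq_one, mul_inv_eq_iff_eq_mul]

theorem cm_inv (a b : G) : (cm a b)⁻¹ = cm b a := by simp only [cm]; group

/-- the centralizer of `x` modulo `Z` in `E` -/
def DD (E Z : Subgroup G) (x : G) [Z.Normal] : Subgroup G :=
  E ⊓ (Subgroup.centralizer {QuotientGroup.mk' Z x}).comap (QuotientGroup.mk' Z)

theorem mem_DD {E Z : Subgroup G} {x : G} [Z.Normal] {e : G} : e ∈ DD E Z x ↔ e ∈ E ∧ cm x e ∈ Z := by
  rw [DD, Subgroup.mem_inf, Subgroup.mem_comap, Subgroup.mem_centralizer_singleton_iff]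
  refine and_congr_right fun _ => ?_
  rw [cm, ← mk_comm_iff]
  exact eq_comm

theorem DD_le {E Z : Subgroup G} {x : G} [Z.Normal] : DD E Z x ≤ E := fun _ h => (mem_DD.1 h).1

theorem Ext.Z_le_DD {E Z : Subgroup G} {q : ℕ} (h : Ext E Z q) {x : G} [Z.Normal] : Z ≤ DD E Z x := by
  intro z hz
  rw [mem_DD]
  refine ⟨h.ZE hz, ?_⟩
  have : cm x z = 1 := by rw [cm_eq_one_iff]; exact h.cen z hz x
  rw [this]; exact one_mem _

theorem Ext.DD_conj {E Z : Subgroup G} {q : ℕ} (h : Ext E Z q) {x : G} [Z.Normal] {e d : G} (he : e ∈ E)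
    (hd : d ∈ DD E Z x) : e * d * e⁻¹ ∈ DD E Z x := by
  have h1 : e * d * e⁻¹ = (e * d * e⁻¹ * d⁻¹) * d := by group
  rw [h1]
  exact mul_mem (h.Z_le_DD (h.com e he d (DD_le hd))) hd

theorem Ext.cop {E Z : Subgroup G} {q : ℕ} (h : Ext E Z q) [Z.Normal] {p : ℕ} [hp : Fact p.Prime] [hq : Fact q.Prime]
    (hpq : q ≠ p) {x : G} (hx : x ^ p = 1) {e : G} (he : e ∈ E) (hd : e⁻¹ * (x * e * x⁻¹) ∈ DD E Z x) : e ∈ DD E Z x := by
  set d := e⁻¹ * (x * e * x⁻¹) with hd0
  have hdE : d ∈ E := DD_le hd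
  have hdc := (mem_DD.1 hd).2
  rw [cm, ← mk_comm_iff] at hdc
  set X := QuotientGroup.mk' Z x with hX
  set e' := QuotientGroup.mk' Z e with he'
  set d' := QuotientGroup.mk' Z d with hd'
  have h1 : X * e' * X⁻¹ = e' * d' := by
    rw [hX, he', hd', ← map_inv, ← map_mul, ← map_mul, ← map_mul, hd0]; congr 1; group
  have h2 : ∀ i : ℕ, X ^ i * e' * (X ^ i)⁻¹ = e' * d' ^ i := by
    intro i
    induction i with
    | zero => simp
    | succ i ih =>
      have e1 : X ^ (i + 1) * e' * (X ^ (i + 1))⁻¹ = X * (X ^ i * e' * (X ^ i)⁻¹) * X⁻¹ := by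
        rw [pow_succ']; group
      rw [e1, ih]
      have e2 : X * (e' * d' ^ i) * X⁻¹ = (X * e' * X⁻¹) * (X * d' * X⁻¹) ^ i := by
        rw [conj_pow]; group
      rw [e2, h1, hdc, mul_assoc d', mul_inv_cancel, mul_one, pow_succ', mul_assoc]
  have h3 := h2 p
  have h4 : X ^ p = 1 := by rw [hX, ← map_pow, hx, map_one]
  rw [h4, one_mul, inv_one, mul_one] at h3
  have h5 : d' ^ p = 1 := (mul_left_cancel ((mul_one e').trans h3)).symm
  obtain ⟨n, hn⟩ := h.hq ⟨d, hdE⟩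
  have h6 : d' ^ (q ^ n) = 1 := by
    rw [hd', ← map_pow]
    have : d ^ (q ^ n) = 1 := congrArg Subtype.val hn
    rw [this, map_one]
  have h7 : d' = 1 := by
    have h8 : orderOf d' ∣ Nat.gcd p (q ^ n) := Nat.dvd_gcd (orderOf_dvd_of_pow_eq_one h5) (orderOf_dvd_of_pow_eq_one h6)
    have h9 : Nat.gcd p (q ^ n) = 1 := by
      have : Nat.Coprime p q := (Nat.coprime_primes hp.out hq.out).2 (Ne.symm hpq)
      exact this.pow_right n
    rw [h9, Nat.dvd_one, orderOf_eq_one_iff] at h8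
    exact h8
  rw [mem_DD]
  refine ⟨he, ?_⟩
  rw [cm, ← mk_comm_iff, ← mul_inv_eq_iff_eq_mul, ← hX, ← he', h1, h7, mul_one]

theorem Ext.DD_ne {E Z : Subgroup G} {q : ℕ} (h : Ext E Z q) [Z.Normal] {x : G}
    (hgen : normalClosure ({x} : Set G) = ⊤) : ∃ e ∈ E, e ∉ DD E Z x := by
  obtain ⟨e, he, hne⟩ := h.moves hgen
  exact ⟨e, he, fun h1 => hne (mem_DD.1 h1).2⟩

/-- if the index is a prime then `x` acts quadratically -/
theorem Ext.quad {E Z : Subgroup G} {q : ℕ} (h : Ext E Z q) [Z.Normal] {x : G}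
    {t : ℕ} (ht : t.Prime) (hc : Nat.card (E ⧸ (DD E Z x).subgroupOf E) = t) {e : G} (he : e ∈ E) :
    cm x e ∈ DD E Z x := by
  by_cases heD : e ∈ DD E Z x
  · exact h.Z_le_DD (mem_DD.1 heD).2
  have hEn := h.nE
  set D := DD E Z x with hD
  have hDn : (D.subgroupOf E).Normal := by
    refine ⟨fun d hd g => ?_⟩
    rw [Subgroup.mem_subgroupOf] at hd ⊢
    exact h.DD_conj g.2 hd
  set y := cm x e with hy
  have hyE : y ∈ E := by
    have : y = (x * e * x⁻¹) * e⁻¹ := rfl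
    rw [this]
    exact mul_mem (hEn.conj_mem e he x) (inv_mem he)
  have : Fact t.Prime := ⟨ht⟩
  -- every element of E is e^k d
  have hcyc : ∀ f ∈ E, ∃ k : ℕ, ∃ d ∈ D, f = e ^ k * d := by
    intro f hf
    have hne : (QuotientGroup.mk' (D.subgroupOf E) ⟨e, he⟩) ≠ 1 := by
      intro h1
      rw [← MonoidHom.mem_ker, QuotientGroup.ker_mk', Subgroup.mem_subgroupOf] at h1
      exact heD h1
    obtain ⟨k, hk⟩ := mem_powers_of_prime_card (g' := QuotientGroup.mk' (D.subgroupOf E) ⟨f, hf⟩) hc hne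
    refine ⟨k, (e ^ k)⁻¹ * f, ?_, by group⟩
    have hk' : (QuotientGroup.mk' (D.subgroupOf E) ⟨e, he⟩) ^ k = QuotientGroup.mk' (D.subgroupOf E) ⟨f, hf⟩ := hk
    rw [← map_pow] at hk'
    have := QuotientGroup.eq.1 hk'
    rw [Subgroup.mem_subgroupOf] at this
    exact this
  have hydD : ∀ d ∈ D, cm d y = 1 := by
    intro d hd
    have hdE := DD_le hd
    have e1 : y = (x * e * x⁻¹) * e⁻¹ := rfl
    rw [e1, h.cm_mul_right hdE (hEn.conj_mem e he x) (inv_mem he)]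
    have e2 : cm d (x * e * x⁻¹) = cm d e := by
      have hz : x⁻¹ * d * x * d⁻¹ ∈ Z := by
        have h2 := (mem_DD.1 (inv_mem hd)).2
        -- cm x d⁻¹ = x d⁻¹ x⁻¹ d
        have h3 : x⁻¹ * d * x * d⁻¹ = x⁻¹ * (cm x d)⁻¹ * x := by simp only [cm]; group
        rw [h3]
        have h4 := (inferInstance : Z.Normal).conj_mem (cm x d)⁻¹ (inv_mem (mem_DD.1 hd).2) x⁻¹
        rwa [inv_inv] at h4
      have h5 := h.cm_conj (a := x⁻¹ * d * x) (b := e) (by
        have := hEn.conj_mem d hdE x⁻¹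
        rwa [inv_inv] at this) he x
      have h6 : x * (x⁻¹ * d * x) * x⁻¹ = d := by group
      rw [h6] at h5
      rw [h5]
      have h7 : x⁻¹ * d * x = (x⁻¹ * d * x * d⁻¹) * d := by group
      rw [h7, h.cm_mul_left (h.ZE hz) hdE he]
      have h8 : cm (x⁻¹ * d * x * d⁻¹) e = 1 := by
        rw [cm_eq_one_iff]; exact (h.cen _ hz e).symm
      rw [h8, one_mul]
    rw [e2, ← h.cm_mul_right hdE he (inv_mem he), mul_inv_cancel]
    simp [cm]
  have hey : cm e y ≠ 1 := by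
    intro h1
    apply heD
    rw [hD, mem_DD]
    refine ⟨he, ?_⟩
    apply h.self y hyE
    intro f hf
    obtain ⟨k, d, hd, rfl⟩ := hcyc f hf
    have : cm (e ^ k * d) y = 1 := by
      rw [h.cm_mul_left (pow_mem he k) (DD_le hd) hyE, h.cm_pow_left he hyE, h1, one_pow, one_mul, hydD d hd]
    exact (cm_eq_one_iff.1 this).symm
  have hetD : e ^ t ∈ D := by
    have h1 : (QuotientGroup.mk' (D.subgroupOf E) ⟨e, he⟩) ^ t = 1 := by
      rw [← hc]; exact pow_card_eq_one'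
    rw [← map_pow, ← MonoidHom.mem_ker, QuotientGroup.ker_mk', Subgroup.mem_subgroupOf] at h1
    exact h1
  have hord : orderOf (cm e y) = t := by
    apply orderOf_eq_prime _ hey
    rw [← h.cm_pow_left he hyE]
    exact hydD _ hetD
  obtain ⟨k, d, hd, hyk⟩ := hcyc y hyE
  have h1 : (cm e y) ^ k = 1 := by
    have h2 : cm y y = 1 := by rw [cm_eq_one_iff]
    have h3 : cm (e ^ k * d) y = 1 := by rw [← hyk]; exact h2
    rw [h.cm_mul_left (pow_mem he k) (DD_le hd) hyE, h.cm_pow_left he hyE, hydD d hd, mul_one] at h3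
    exact h3
  have h2 : t ∣ k := by rw [← hord]; exact orderOf_dvd_of_pow_eq_one h1
  obtain ⟨m, rfl⟩ := h2
  rw [hyk, pow_mul]
  exact mul_mem (pow_mem hetD m) hd

end Arith

end Cfsg.Agent.Lib.H12Fix
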