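import Cfsg.Agent.Lib.H12Fix5

/-! The numerical bound `4 (p - 1) ≤ t (p - 4)`. -/

set_option autoImplicit false
set_option maxHeartbeats 400000

namespace Cfsg.Agent.Lib.H12Fix

open Subgroup
open scoped commutatorElement

variable {G : Type*} [Group G]

theorem Ext.not_quad_cop {E Z : Subgroup G} {q : ℕ} (h : Ext E Z q) [Z.Normal] {p : ℕ} [hp : Fact p.Prime]
    [hq : Fact q.Prime] (hpq : q ≠ p) {x : G} (hx : x ^ p = 1) (hgen : normalClosure ({x} : Set G) = ⊤) :
    ¬ ∀ e ∈ E, cm x e ∈ DD E Z x := by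
  intro hquad
  obtain ⟨e, he, hne⟩ := h.DD_ne hgen
  apply hne
  apply h.cop hpq hx he
  have h1 : e⁻¹ * (x * e * x⁻¹) = e⁻¹ * cm x e * e := by simp only [cm]; group
  rw [h1]
  have := h.DD_conj (inv_mem he) (hquad e he)
  rwa [inv_inv] at this

theorem not_solvable_SL2 {p : ℕ} [hp : Fact p.Prime] (h5 : 5 ≤ p) :
    ¬ Group.IsSolvable (Matrix.SpecialLinearGroup (Fin 2) (ZMod p)) := by
  have hperf : commutator (Matrix.SpecialLinearGroup (Fin 2) (ZMod p)) = ⊤ := by
    apply Cfsg.Agent.Lib.ClSLn.commutator_SL_eq_top'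
    intro _
    have h2 : (2 : ZMod p) ≠ 0 := by
      intro h
      have : p ∣ 2 := (ZMod.natCast_eq_zero_iff 2 p).mp (by exact_mod_cast h)
      have := Nat.le_of_dvd (by norm_num) this
      omega
    refine ⟨2, h2, ?_⟩
    intro h
    have : ((3 : ℕ) : ZMod p) = 0 := by push_cast; linear_combination h
    have := (ZMod.natCast_eq_zero_iff 3 p).mp this
    have := Nat.le_of_dvd (by norm_num) this
    omega
  have hnt : Nontrivial (Matrix.SpecialLinearGroup (Fin 2) (ZMod p)) := by
    have hf : Nontrivial (ZMod p) := ZMod.nontrivial_iff.2 (by omega)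
    refine ⟨⟨1, Matrix.SpecialLinearGroup.transvection (i := 0) (j := 1) (by decide) 1, ?_⟩⟩
    intro h
    have h1 := congrArg (fun m : Matrix.SpecialLinearGroup (Fin 2) (ZMod p) => (m : Matrix (Fin 2) (Fin 2) (ZMod p)) 0 1) h
    simp [Matrix.SpecialLinearGroup.transvection_coe] at h1
  intro hs
  exact (Group.IsSolvable.commutator_lt_top_of_nontrivial _).ne hperf

theorem Ext.not_quad_p [Finite G] [Group.IsSolvable G] {E Z : Subgroup G} {p : ℕ} [hp : Fact p.Prime] (h : Ext E Z p)
    [hZ : Z.Normal] (h5 : 5 ≤ p) {x : G} (hgen : normalClosure ({x} : Set G) = ⊤) :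
    ¬ ∀ e ∈ E, cm x e ∈ DD E Z x := by
  intro hquad
  classical
  have hEn := h.nE
  let mk := QuotientGroup.mk' Z
  let P : Subgroup (G ⧸ Z) := E.map mk
  have hPn : P.Normal := hEn.map _ (QuotientGroup.mk'_surjective Z)
  have hPp : IsPGroup p P := h.hq.map mk
  have hq : QuadSection.Quad P (mk x) := by
    rintro _ ⟨e, he, rfl⟩
    have h1 : ⁅mk e, mk x⁆ = mk (cm x e)⁻¹ := by
      rw [commutatorElement_def, ← map_mul, ← map_inv, ← map_inv, ← map_mul, ← map_mul]
      congr 1
      simp only [cm]; group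
    rw [h1]
    have h2 := (mem_DD.1 (inv_mem (hquad e he))).2
    rw [cm, ← mk_comm_iff] at h2
    rw [commutatorElement_def]
    rw [mul_inv_eq_one, mul_inv_eq_iff_eq_mul]
    exact h2.symm
  have hnat : QuadSection.NatSec p P (⊤ : Subgroup (G ⧸ Z)) := by
    apply PStabPair.natSec_of_not_stable (by omega) hPp (N := ⊤) (by rw [Subgroup.normalizer_eq_top]) (a := mk x)
      (Subgroup.mem_top _) hq
    intro D' _ hD' hD'c hxD'
    have hD'n : D'.Normal := by
      rw [← Subgroup.normalizer_eq_top_iff]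
      exact top_le_iff.1 hD'
    have hD't : D' = ⊤ := by
      have h1 : D'.comap mk = ⊤ := by
        rw [eq_top_iff, ← hgen]
        have : (D'.comap mk).Normal := hD'n.comap mk
        apply Subgroup.normalClosure_le_normal
        rw [Set.singleton_subset_iff]
        exact hxD'
      rw [eq_top_iff]
      intro g _
      obtain ⟨g, rfl⟩ := QuotientGroup.mk'_surjective Z g
      have : g ∈ D'.comap mk := by rw [h1]; trivial
      exact this
    -- the action on P is a p-group
    let φ : (G ⧸ Z) →* MulAut P := MulAut.conjNormal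
    have hφ : IsPGroup p φ.range := by
      rintro ⟨_, g, rfl⟩
      obtain ⟨k, hk⟩ := hD'c g (by rw [hD't]; trivial)
      refine ⟨k, ?_⟩
      apply Subtype.ext
      show (φ g) ^ (p ^ k) = 1
      rw [← map_pow]
      apply MulEquiv.ext
      intro a
      apply Subtype.ext
      show g ^ p ^ k * (a : G ⧸ Z) * (g ^ p ^ k)⁻¹ = a
      have := Subgroup.mem_centralizer_iff.1 hk a a.2
      rw [← this, mul_assoc, mul_inv_cancel, mul_one]
    have hPnt : Nontrivial P := by
      rw [Subgroup.nontrivial_iff_ne_bot]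
      intro hb
      apply h.ne
      intro e he
      have h1 : mk e ∈ P := ⟨e, he, rfl⟩
      rw [hb, Subgroup.mem_bot] at h1
      rw [← QuotientGroup.ker_mk' Z]
      exact h1
    have hdvd : p ∣ Nat.card P := by
      obtain ⟨n, hn, hc⟩ := hPp.nontrivial_iff_card.1 hPnt
      rw [hc]
      exact dvd_pow_self p (by omega)
    obtain ⟨b, hb, hb1⟩ := hφ.exists_fixed_point_of_prime_dvd_card_of_fixed_point P hdvd (a := 1) (by
      intro m
      exact map_one (m : MulAut P))
    obtain ⟨_, ⟨e, he, rfl⟩⟩ := b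
    apply hb1
    apply Subtype.ext
    show 1 = mk e
    have heZ : e ∈ Z := by
      apply h.no_fixed he
      intro g
      rw [← mk_comm_iff]
      have h1 := hb ⟨φ (mk g), ⟨mk g, rfl⟩⟩
      have h2 := congrArg Subtype.val h1
      have h3 : mk g * mk e * (mk g)⁻¹ = mk e := h2
      rw [mul_inv_eq_iff_eq_mul] at h3
      exact h3
    symm
    rw [← QuotientGroup.ker_mk' Z] at heZ
    exact heZ
  obtain ⟨H1, Q, hHQ, f, θ, h1, h2, h3, h4, h5'⟩ := hnat
  exact not_solvable_SL2 h5 (Group.isSolvable_of_surjective h4)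

theorem Ext.tmod [Finite G] {E Z : Subgroup G} {q : ℕ} (h : Ext E Z q) [hZn : Z.Normal] {p : ℕ} [hp : Fact p.Prime]
    [hq : Fact q.Prime] (hpq : q ≠ p) {x : G} (hx : x ^ p = 1) :
    Nat.card (E ⧸ (DD E Z x).subgroupOf E) ≡ 1 [MOD p] := by
  classical
  have hEn := h.nE
  set D' := (DD E Z x).subgroupOf E with hD'
  have hDn : D'.Normal := by
    refine ⟨fun d hd g => ?_⟩
    rw [Subgroup.mem_subgroupOf] at hd ⊢
    exact h.DD_conj g.2 hd
  let c : E →* E := (MulAut.conjNormal x).toMonoidHom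
  have hc : ∀ e : E, ((c e : E) : G) = x * e * x⁻¹ := fun e => rfl
  have hDc : D' ≤ D'.comap c := by
    intro d hd
    rw [Subgroup.mem_comap, Subgroup.mem_subgroupOf]
    rw [Subgroup.mem_subgroupOf] at hd
    rw [hc]
    have h1 : x * (d : G) * x⁻¹ = cm x d * d := by simp only [cm]; group
    rw [h1]
    exact mul_mem (h.Z_le_DD (mem_DD.1 hd).2) hd
  let f : E ⧸ D' →* E ⧸ D' := QuotientGroup.map D' D' c hDc
  let F : Function.End (E ⧸ D') := fun y => f y
  have hF : ∀ i : ℕ, ∀ e : E, (F ^ i) (QuotientGroup.mk' D' e) = QuotientGroup.mk' D' ((c^[i]) e) := by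
    intro i
    induction i with
    | zero => intro e; rfl
    | succ i ih =>
      intro e
      rw [pow_succ]
      show (F ^ i) (F (QuotientGroup.mk' D' e)) = _
      have : F (QuotientGroup.mk' D' e) = QuotientGroup.mk' D' (c e) := rfl
      rw [this, ih, Function.iterate_succ_apply]
  have hci : ∀ i : ℕ, ∀ e : E, (((c^[i]) e : E) : G) = x ^ i * e * (x ^ i)⁻¹ := by
    intro i
    induction i with
    | zero => intro e; simp
    | succ i ih =>
      intro e
      rw [Function.iterate_succ_apply, ih, hc, pow_succ]; group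
  have hFp : F ^ p ^ 1 = 1 := by
    rw [pow_one]
    funext e
    obtain ⟨e, rfl⟩ := QuotientGroup.mk'_surjective D' e
    rw [hF]
    have : (c^[p]) e = e := by
      apply Subtype.ext
      rw [hci, hx]; simp
    rw [this]; rfl
  have : Fintype (E ⧸ D') := Fintype.ofFinite _
  have h1 := Equiv.Perm.card_fixedPoints_modEq hFp
  have h2 : ∀ I : Fintype (Function.fixedPoints F), @Fintype.card (Function.fixedPoints F) I = 1 := by
    intro I
    rw [Fintype.card_eq_one_iff]
    refine ⟨⟨1, map_one f⟩, ?_⟩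
    rintro ⟨y, hy⟩
    apply Subtype.ext
    show y = 1
    obtain ⟨e, rfl⟩ := QuotientGroup.mk'_surjective D' y
    have h3 : QuotientGroup.mk' D' (c e) = QuotientGroup.mk' D' e := hy
    have h4 := QuotientGroup.eq.1 h3.symm
    rw [Subgroup.mem_subgroupOf] at h4
    have h5 := h.cop hpq hx e.2 h4
    rw [← MonoidHom.mem_ker, QuotientGroup.ker_mk', Subgroup.mem_subgroupOf]
    exact h5
  rw [h2] at h1
  rw [Nat.card_eq_fintype_card]
  exact h1

theorem Ext.bound [Finite G] [Group.IsSolvable G] {E Z : Subgroup G} {q : ℕ} (h : Ext E Z q) [hZn : Z.Normal] {p : ℕ}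
    [hp : Fact p.Prime] [hq : Fact q.Prime] (hp3 : 3 < p) {x : G} (hx : x ^ p = 1)
    (hgen : normalClosure ({x} : Set G) = ⊤) :
    4 * (p - 1) ≤ Nat.card (E ⧸ (DD E Z x).subgroupOf E) * (p - 4) := by
  have h5 : 5 ≤ p := by
    have h4 : p ≠ 4 := by rintro rfl; exact absurd hp.out (by decide)
    omega
  set t := Nat.card (E ⧸ (DD E Z x).subgroupOf E) with ht
  have htp : ¬ t.Prime := by
    intro htp
    have hquad : ∀ e ∈ E, cm x e ∈ DD E Z x := fun e he => h.quad htp ht.symm he
    by_cases hpq : q = p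
    · subst hpq
      exact h.not_quad_p h5 hgen hquad
    · exact h.not_quad_cop hpq hx hgen hquad
  have ht1 : t ≠ 1 := by
    intro h1
    obtain ⟨e, he, hne⟩ := h.DD_ne hgen
    apply hne
    have h2 : ((DD E Z x).subgroupOf E).index = 1 := h1
    rw [Subgroup.index_eq_one] at h2
    have : (⟨e, he⟩ : E) ∈ (DD E Z x).subgroupOf E := by rw [h2]; trivial
    exact this
  obtain ⟨m, hm⟩ : ∃ m, t = q ^ m := by
    obtain ⟨n, hn⟩ := IsPGroup.iff_card.1 h.hq
    have : t ∣ q ^ n := by rw [← hn]; exact ((DD E Z x).subgroupOf E).index_dvd_card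
    obtain ⟨m, -, hm⟩ := (Nat.dvd_prime_pow hq.out).1 this
    exact ⟨m, hm⟩
  have hm2 : 2 ≤ m := by
    by_contra hcon
    have : m = 0 ∨ m = 1 := by omega
    rcases this with rfl | rfl
    · exact ht1 (by rw [hm, pow_zero])
    · exact htp (by rw [hm, pow_one]; exact hq.out)
  have hq2 : q ^ 2 ∣ t := by rw [hm]; exact pow_dvd_pow q hm2
  have ht0 : 0 < t := by rw [hm]; exact pow_pos hq.out.pos m
  by_cases hpq : q = p
  · subst hpq
    have h6 : q ^ 2 ≤ t := Nat.le_of_dvd ht0 hq2
    obtain ⟨r, rfl⟩ : ∃ r, q = r + 5 := ⟨q - 5, by omega⟩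
    have e1 : r + 5 - 1 = r + 4 := by omega
    have e2 : r + 5 - 4 = r + 1 := by omega
    rw [e1, e2]
    nlinarith
  · have h6 := h.tmod hpq hx
    rw [← ht] at h6
    have h7 : p ∣ t - 1 := (Nat.modEq_iff_dvd' (by omega)).1 h6.symm
    obtain ⟨s, hs⟩ := h7
    have hs1 : 1 ≤ s := by
      rcases Nat.eq_zero_or_pos s with rfl | h8
      · omega
      · exact h8
    have hts : t = p * s + 1 := by omega
    by_cases hp5 : p = 5
    · subst hp5
      have hs3 : 3 ≤ s := by
        by_contra hcon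
        have hle : q ^ 2 ≤ t := Nat.le_of_dvd ht0 hq2
        have hq3 : q ≤ 3 := by
          by_contra h9
          nlinarith
        have hq2' := hq.out.two_le
        have hq23 : q = 2 ∨ q = 3 := by omega
        have hs12 : s = 1 ∨ s = 2 := by omega
        rcases hq23 with rfl | rfl <;> rcases hs12 with rfl | rfl <;> omega
      omega
    · have hp7 : 7 ≤ p := by
        have : p ≠ 6 := by rintro rfl; exact absurd hp.out (by decide)
        omega
      have h10 : p + 1 ≤ t := by nlinarith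
      obtain ⟨r, rfl⟩ : ∃ r, p = r + 7 := ⟨p - 7, by omega⟩
      have e1 : r + 7 - 1 = r + 6 := by omega
      have e2 : r + 7 - 4 = r + 3 := by omega
      rw [e1, e2]
      nlinarith

end Cfsg.Agent.Lib.H12Fix
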