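import Cfsg.Agent.Lib.H12Fix4
import Cfsg.Agent.Lib.H12Fix6

/-! The fixed space of an element of prime order: the case of a nonabelian normal subgroup. -/

set_option autoImplicit false
set_option maxHeartbeats 400000

namespace Cfsg.Agent.Lib.H12Fix

open Module

section Endo

variable {K : Type*} [Field K] {V : Type*} [AddCommGroup V] [Module K V] {G : Type*} [Group G]

/-- conjugation on endomorphisms -/
def cj (ρ : G →* Module.End K V) : G →* Module.End K (Module.End K V) where
  toFun g :=
    { toFun := fun T => ρ g * T * ρ g⁻¹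
      map_add' := fun a b => by rw [mul_add, add_mul]
      map_smul' := fun c a => by simp }
  map_one' := by
    apply LinearMap.ext
    intro T
    simp
  map_mul' g h := by
    apply LinearMap.ext
    intro T
    show ρ (g * h) * T * ρ (g * h)⁻¹ = ρ g * (ρ h * T * ρ h⁻¹) * ρ g⁻¹
    rw [mul_inv_rev, map_mul, map_mul]
    simp only [mul_assoc]

theorem cj_apply (ρ : G →* Module.End K V) (g : G) (T : Module.End K V) : cj ρ g T = ρ g * T * ρ g⁻¹ := rfl

theorem rho_inv_mul (ρ : G →* Module.End K V) (g : G) : ρ g⁻¹ * ρ g = 1 := by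
  rw [← map_mul, inv_mul_cancel, map_one]

theorem rho_mul_inv (ρ : G →* Module.End K V) (g : G) : ρ g * ρ g⁻¹ = 1 := by
  rw [← map_mul, mul_inv_cancel, map_one]

theorem lower [FiniteDimensional K V] (x : Module.End K V) (hx : x ≠ 1) (C : Submodule K V) (hC : ∀ v, v ∈ C ↔ x v = v)
    (C' : Submodule K (Module.End K V)) (hC' : ∀ T, x * T = T * x → T ∈ C') :
    (Module.finrank K C) ^ 2 + 1 ≤ Module.finrank K C' := by
  let R : Submodule K V := LinearMap.range (x - 1)
  have hCk : C = LinearMap.ker (x - 1) := by
    ext v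
    rw [LinearMap.mem_ker, hC, LinearMap.sub_apply, Module.End.one_apply, sub_eq_zero]
  have h1 : Module.finrank K (V ⧸ R) = Module.finrank K C := by
    have e1 := LinearMap.finrank_range_add_finrank_ker (x - 1)
    have e2 := Submodule.finrank_quotient_add_finrank R
    rw [hCk]
    have e3 : Module.finrank K R = Module.finrank K (LinearMap.range (x - 1)) := rfl
    omega
  let Φ : ((V ⧸ R) →ₗ[K] C) →ₗ[K] Module.End K V :=
    { toFun := fun S => C.subtype ∘ₗ S ∘ₗ R.mkQ
      map_add' := fun a b => by
        apply LinearMap.ext; intro v; rfl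
      map_smul' := fun c a => by
        apply LinearMap.ext; intro v; rfl }
  have hΦ : ∀ S v, Φ S v = (S (R.mkQ v) : V) := fun S v => rfl
  have hinj : Function.Injective Φ := by
    intro S T h
    apply LinearMap.ext
    intro y
    obtain ⟨v, rfl⟩ := R.mkQ_surjective y
    apply Subtype.ext
    exact LinearMap.congr_fun h v
  have h2 : Module.finrank K (LinearMap.range Φ) = (Module.finrank K C) ^ 2 := by
    rw [LinearMap.finrank_range_of_inj hinj, Module.finrank_linearMap, h1, sq]
  have hlt : LinearMap.range Φ < C' := by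
    rw [lt_iff_le_and_ne]
    constructor
    · rintro _ ⟨S, rfl⟩
      apply hC'
      apply LinearMap.ext
      intro v
      show x (Φ S v) = Φ S (x v)
      rw [hΦ, hΦ, (hC _).1 (S (R.mkQ v)).2]
      have : R.mkQ (x v) = R.mkQ v := by
        rw [← sub_eq_zero, ← map_sub, ← LinearMap.mem_ker, Submodule.ker_mkQ]
        exact ⟨v, rfl⟩
      rw [this]
    · intro h
      have h3 : (1 : Module.End K V) ∈ LinearMap.range Φ := by
        rw [h]; exact hC' 1 (by rw [mul_one, one_mul])
      obtain ⟨S, hS⟩ := h3
      apply hx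
      apply LinearMap.ext
      intro v
      rw [Module.End.one_apply, ← hC]
      have h4 : Φ S v = v := by rw [hS]; rfl
      rw [← h4, hΦ]
      exact (S _).2
  have h3 := Submodule.finrank_lt_finrank_of_lt hlt
  rw [h2] at h3
  exact h3

end Endo

end Cfsg.Agent.Lib.H12Fix
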