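import Cfsg.Agent.Lib.H12Fix7

/-! The fixed space of an element of prime order: the case of a nonabelian normal subgroup, counting. -/

set_option autoImplicit false
set_option maxHeartbeats 400000

namespace Cfsg.Agent.Lib.H12Fix

open Module

section Count

variable {K : Type*} [Field K] {V : Type*} [AddCommGroup V] [Module K V] [Nontrivial V] {G : Type*} [Group G]
  {ρ : G →* Module.End K V} {E Z : Subgroup G} {q : ℕ} {c : G → K}

omit [Nontrivial V] in
theorem Ext.com' (h : Ext E Z q) (a : G) (ha : a ∈ E) (b : G) (hb : b ∈ E) : cm a b ∈ Z := h.com a ha b hb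

theorem smul_one_inj {a b : K} (h : (a • 1 : Module.End K V) = b • 1) : a = b := by
  obtain ⟨w, hw⟩ := exists_ne (0 : V)
  have h1 := LinearMap.congr_fun h w
  rw [LinearMap.smul_apply, LinearMap.smul_apply, Module.End.one_apply, ← sub_eq_zero, ← sub_smul, smul_eq_zero] at h1
  rcases h1 with h1 | h1
  · exact sub_eq_zero.1 h1
  · exact absurd h1 hw

theorem c_mul (hc : ∀ z ∈ Z, ρ z = c z • 1) {z w : G} (hz : z ∈ Z) (hw : w ∈ Z) : c (z * w) = c z * c w := by
  apply smul_one_inj (V := V)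
  rw [← hc _ (mul_mem hz hw), map_mul, hc z hz, hc w hw, smul_mul_smul_comm, mul_one]

theorem c_one (hc : ∀ z ∈ Z, ρ z = c z • 1) : c 1 = 1 := by
  apply smul_one_inj (V := V)
  rw [← hc 1 (one_mem _), map_one, one_smul]

theorem c_ne_zero (hc : ∀ z ∈ Z, ρ z = c z • 1) {z : G} (hz : z ∈ Z) : c z ≠ 0 := by
  intro h
  have h1 := c_mul hc hz (inv_mem hz)
  rw [mul_inv_cancel, c_one hc, h, zero_mul] at h1
  exact one_ne_zero h1

theorem cj_of_mem (hc : ∀ z ∈ Z, ρ z = c z • 1) {z : G} (hz : z ∈ Z) : cj ρ z = 1 := by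
  apply LinearMap.ext
  intro T
  rw [cj_apply, Module.End.one_apply]
  have h1 : ρ z * T = T * ρ z := by
    rw [hc z hz, smul_mul_assoc, one_mul, mul_smul_comm, mul_one]
  rw [h1, mul_assoc, rho_mul_inv, mul_one]

theorem cj_comm (h : Ext E Z q) (hc : ∀ z ∈ Z, ρ z = c z • 1) (a b : E) :
    resE (cj ρ) E a * resE (cj ρ) E b = resE (cj ρ) E b * resE (cj ρ) E a := by
  show cj ρ a * cj ρ b = cj ρ b * cj ρ a
  rw [← map_mul, ← map_mul]
  have h1 : (a : G) * b = cm (a : G) b * (b * a) := by simp only [cm]; group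
  rw [h1, map_mul, cj_of_mem hc (h.com' a a.2 b b.2), one_mul]

theorem wt_ne_zero (l : Wts (cj ρ) E) (e : E) : l.1 e ≠ 0 := by
  obtain ⟨T, hT, hT0⟩ := (Submodule.ne_bot_iff _).1 l.2
  intro h0
  have h1 := mem_ws.1 hT e
  rw [h0, zero_smul] at h1
  exact hT0 (inj_of_group (cj ρ) e (h1.trans (map_zero _).symm))

theorem tw_mem (h : Ext E Z q) (hc : ∀ z ∈ Z, ρ z = c z • 1) (e0 : E) (l : E → K) {T : Module.End K V}
    (hT : T ∈ ws (resE (cj ρ) E) l) : ρ (e0 : G) * T ∈ ws (resE (cj ρ) E) (fun e => c (cm (e : G) e0) * l e) := by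
  rw [mem_ws] at hT ⊢
  intro e
  have h1 : ρ (e : G) * T * ρ (e : G)⁻¹ = l e • T := hT e
  show ρ (e : G) * (ρ (e0 : G) * T) * ρ (e : G)⁻¹ = _
  have h2 : ρ (e : G) * ρ (e0 : G) = (c (cm (e : G) e0)) • (ρ (e0 : G) * ρ (e : G)) := by
    rw [← map_mul, ← map_mul]
    have h3 : (e : G) * e0 = cm (e : G) e0 * (e0 * e) := by simp only [cm]; group
    rw [h3, map_mul, hc _ (h.com' e e.2 e0 e0.2)]
    show (c (cm (e : G) e0) • 1) * _ = _
    rw [smul_mul_assoc, one_mul]
  rw [← mul_assoc, h2, smul_mul_assoc, smul_mul_assoc, mul_assoc, mul_assoc, ← mul_assoc (ρ (e : G)), h1, mul_smul_comm,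
    mul_smul]

/-- translates of weights -/
def tw (h : Ext E Z q) (hc : ∀ z ∈ Z, ρ z = c z • 1) (e0 : E) (l : Wts (cj ρ) E) : Wts (cj ρ) E :=
  ⟨fun e => c (cm (e : G) e0) * l.1 e, by
    obtain ⟨T, hT, hT0⟩ := (Submodule.ne_bot_iff _).1 l.2
    rw [Submodule.ne_bot_iff]
    refine ⟨_, tw_mem h hc e0 l.1 hT, ?_⟩
    intro h0
    apply hT0
    have h1 : ρ (e0 : G)⁻¹ * (ρ (e0 : G) * T) = 0 := by rw [h0, mul_zero]
    rwa [← mul_assoc, rho_inv_mul, one_mul] at h1⟩

theorem finrank_tw [FiniteDimensional K V] (h : Ext E Z q) (hc : ∀ z ∈ Z, ρ z = c z • 1) (e0 : E) (l : Wts (cj ρ) E) :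
    Module.finrank K (ws (resE (cj ρ) E) l.1) ≤ Module.finrank K (ws (resE (cj ρ) E) (tw h hc e0 l).1) := by
  let f : ws (resE (cj ρ) E) l.1 →ₗ[K] ws (resE (cj ρ) E) (tw h hc e0 l).1 :=
    ((LinearMap.mulLeft K (ρ (e0 : G))) ∘ₗ (ws (resE (cj ρ) E) l.1).subtype).codRestrict _
      (fun T => tw_mem h hc e0 l.1 T.2)
  apply LinearMap.finrank_le_finrank_of_injective (f := f)
  intro a b hab
  apply Subtype.ext
  have h1 : ρ (e0 : G) * (a : Module.End K V) = ρ (e0 : G) * b := congrArg Subtype.val hab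
  have h2 : ρ (e0 : G)⁻¹ * (ρ (e0 : G) * (a : Module.End K V)) = ρ (e0 : G)⁻¹ * (ρ (e0 : G) * b) := by rw [h1]
  rwa [← mul_assoc, ← mul_assoc, rho_inv_mul, one_mul, one_mul] at h2

theorem tw_inj_left [hEn : E.Normal] (h : Ext E Z q) [hZn : Z.Normal] (hc : ∀ z ∈ Z, ρ z = c z • 1)
    (hc1 : ∀ z ∈ Z, c z = 1 → z = 1) {x : G} {e e' : E} {l l' : Wts (cj ρ) E} (hl : x • l = l) (hl' : x • l' = l')
    (heq : tw h hc e l = tw h hc e' l') : (e : G)⁻¹ * e' ∈ DD E Z x := by
  have hb : ∀ a : E, c (cm (a : G) e) * l.1 a = c (cm (a : G) e') * l'.1 a := by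
    intro a
    exact congrFun (congrArg Subtype.val heq) a
  have hfx : ∀ {l : Wts (cj ρ) E}, x • l = l → ∀ a : E, l.1 (MulAut.conjNormal x⁻¹ a) = l.1 a := by
    intro l hl a
    exact congrFun (congrArg Subtype.val hl) a
  set f : G := (e : G)⁻¹ * e' with hf
  have hfE : f ∈ E := mul_mem (inv_mem e.2) e'.2
  have hee : (e' : G) = e * f := by rw [hf]; group
  -- l a = c (cm a f) * l' a
  have hb2 : ∀ a : E, l.1 a = c (cm (a : G) f) * l'.1 a := by
    intro a
    have h1 := hb a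
    rw [hee, h.cm_mul_right a.2 e.2 hfE, c_mul hc (h.com' a a.2 e e.2) (h.com' a a.2 f hfE), mul_assoc] at h1
    exact mul_left_cancel₀ (c_ne_zero hc (h.com' a a.2 e e.2)) h1
  have hb3 : ∀ a : E, c (cm (x⁻¹ * (a : G) * x) f) = c (cm (a : G) f) := by
    intro a
    have h1 := hb2 (MulAut.conjNormal x⁻¹ a)
    rw [hfx hl, hfx hl', hb2 a] at h1
    have h2 := mul_right_cancel₀ (wt_ne_zero l' a) h1
    rw [MulAut.conjNormal_apply, inv_inv] at h2
    exact h2.symm
  have hxf : x * f * x⁻¹ ∈ E := hEn.conj_mem f hfE x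
  rw [mem_DD]
  refine ⟨hfE, ?_⟩
  apply h.self
  · exact mul_mem hxf (inv_mem hfE)
  intro a ha
  symm
  rw [← cm_eq_one_iff]
  have h1 : cm x f = (x * f * x⁻¹) * f⁻¹ := rfl
  have h1' : x * f * x⁻¹ * f⁻¹ = (x * f * x⁻¹) * f⁻¹ := rfl
  have hxa : x⁻¹ * a * x ∈ E := by
    have := hEn.conj_mem a ha x⁻¹
    rwa [inv_inv] at this
  have h2 : cm a (x * f * x⁻¹) = cm a f := by
    have h3 := h.cm_conj hxa hfE x
    have h4 : x * (x⁻¹ * a * x) * x⁻¹ = a := by group
    rw [h4] at h3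
    rw [h3]
    have hz1 := h.com' _ hxa f hfE
    have hz2 := h.com' a ha f hfE
    have h5 : c (cm (x⁻¹ * a * x) f * (cm a f)⁻¹) = 1 := by
      rw [c_mul hc hz1 (inv_mem hz2), hb3 ⟨a, ha⟩]
      have := c_mul hc hz2 (inv_mem hz2)
      rw [mul_inv_cancel, c_one hc] at this
      exact this.symm
    have h6 := hc1 _ (mul_mem hz1 (inv_mem hz2)) h5
    exact mul_inv_eq_one.1 h6
  show cm a (x * f * x⁻¹ * f⁻¹) = 1
  rw [h.cm_mul_right ha hxf (inv_mem hfE), h2, ← h.cm_mul_right ha hfE (inv_mem hfE), mul_inv_cancel]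
  simp [cm]

theorem tw_inj_right (h : Ext E Z q) (hc : ∀ z ∈ Z, ρ z = c z • 1) {e : E} {l l' : Wts (cj ρ) E}
    (heq : tw h hc e l = tw h hc e l') : l = l' := by
  apply Subtype.ext
  funext a
  have h1 : c (cm (a : G) e) * l.1 a = c (cm (a : G) e) * l'.1 a := congrFun (congrArg Subtype.val heq) a
  exact mul_left_cancel₀ (c_ne_zero hc (h.com' a a.2 e e.2)) h1

theorem count [FiniteDimensional K V] [Finite G] [hEn : E.Normal] (h : Ext E Z q) [hZn : Z.Normal]
    (hc : ∀ z ∈ Z, ρ z = c z • 1)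
    (hc1 : ∀ z ∈ Z, c z = 1 → z = 1) (x : G) [Fintype (Wts (cj ρ) E)] [DecidableEq (Wts (cj ρ) E)] :
    Nat.card (E ⧸ (DD E Z x).subgroupOf E) *
      ∑ ω ∈ Finset.univ.filter (fun ω : Wts (cj ρ) E => x • ω = ω), Module.finrank K (ws (resE (cj ρ) E) ω.1) ≤
      ∑ ω : Wts (cj ρ) E, Module.finrank K (ws (resE (cj ρ) E) ω.1) := by
  classical
  let Q := E ⧸ (DD E Z x).subgroupOf E
  have : Fintype Q := Fintype.ofFinite _
  let w : Wts (cj ρ) E → ℕ := fun ω => Module.finrank K (ws (resE (cj ρ) E) ω.1)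
  let m : Q × Wts (cj ρ) E → Wts (cj ρ) E := fun a => tw h hc a.1.out a.2
  let S := (Finset.univ : Finset Q) ×ˢ (Finset.univ.filter (fun ω : Wts (cj ρ) E => x • ω = ω))
  have h1 : Nat.card Q * ∑ ω ∈ Finset.univ.filter (fun ω : Wts (cj ρ) E => x • ω = ω), w ω = ∑ a ∈ S, w a.2 := by
    rw [Finset.sum_product]
    show _ = ∑ _i : Q, ∑ ω ∈ Finset.univ.filter (fun ω : Wts (cj ρ) E => x • ω = ω), w ω
    rw [Finset.sum_const, Finset.card_univ, Nat.card_eq_fintype_card, smul_eq_mul]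
  have h2 : ∑ a ∈ S, w a.2 ≤ ∑ a ∈ S, w (m a) := Finset.sum_le_sum (fun a _ => finrank_tw h hc _ a.2)
  have hinj : Set.InjOn m S := by
    rintro ⟨i, l⟩ ha ⟨i', l'⟩ ha' heq
    rw [Finset.mem_coe, Finset.mem_product, Finset.mem_filter] at ha ha'
    have h3 := tw_inj_left h hc hc1 ha.2.2 ha'.2.2 heq
    have h4 : i = i' := by
      rw [← QuotientGroup.out_eq' i, ← QuotientGroup.out_eq' i']
      apply QuotientGroup.eq.2
      rw [Subgroup.mem_subgroupOf]
      exact h3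
    subst h4
    have h5 : l = l' := tw_inj_right h hc heq
    rw [h5]
  have h3 : ∑ a ∈ S, w (m a) = ∑ ω ∈ S.image m, w ω := (Finset.sum_image hinj).symm
  have h4 : ∑ ω ∈ S.image m, w ω ≤ ∑ ω, w ω :=
    Finset.sum_le_sum_of_subset (Finset.subset_univ _)
  show Nat.card Q * ∑ ω ∈ Finset.univ.filter (fun ω : Wts (cj ρ) E => x • ω = ω), w ω ≤ ∑ ω, w ω
  rw [h1]
  exact (h2.trans h3.le).trans h4

/-- the case of a nonabelian subgroup whose centre acts by scalars -/
theorem nonabelian_case [IsAlgClosed K] [FiniteDimensional K V] [Finite G] [Group.IsSolvable G] [hEn : E.Normal]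
    (h : Ext E Z q) [hZn : Z.Normal] {p : ℕ} [hp : Fact p.Prime] [hq : Fact q.Prime] (hp3 : 3 < p) {x : G} (hx : x ^ p = 1)
    (hgen : Subgroup.normalClosure ({x} : Set G) = ⊤) (hE : (Nat.card E : K) ≠ 0)
    (hc : ∀ z ∈ Z, ρ z = c z • 1) (hc1 : ∀ z ∈ Z, c z = 1 → z = 1)
    (C : Submodule K V) (hC : ∀ v, v ∈ C ↔ ρ x v = v) :
    2 * Module.finrank K C < Module.finrank K V := by
  classical
  have hd : 0 < Module.finrank K V := Module.finrank_pos
  have hx1 : ρ x ≠ 1 := by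
    intro h1
    -- then cj x = 1 and everything is centralized
    obtain ⟨e, he, hne⟩ := h.DD_ne hgen
    apply hne
    rw [mem_DD]
    refine ⟨he, ?_⟩
    have hy : cm x e ∈ E := mul_mem (hEn.conj_mem e he x) (inv_mem he)
    have hρ : ρ (cm x e) = 1 := by
      show ρ (x * e * x⁻¹ * e⁻¹) = 1
      have h2 : ρ x⁻¹ = 1 := by
        have := rho_inv_mul ρ x
        rwa [h1, mul_one] at this
      rw [map_mul, map_mul, map_mul, h1, h2, mul_one, one_mul, rho_mul_inv]
    apply h.self _ hy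
    intro a ha
    rw [← cm_eq_one_iff]
    have h3 : ρ (cm (cm x e) a) = 1 := by
      have h4 : cm (cm x e) a = cm x e * a * (cm x e)⁻¹ * a⁻¹ := rfl
      have h5 : ρ (cm x e)⁻¹ = 1 := by
        have := rho_inv_mul ρ (cm x e)
        rwa [hρ, mul_one] at this
      rw [h4, map_mul, map_mul, map_mul, hρ, h5, mul_one, one_mul, rho_mul_inv]
    have h6 := h.com' _ hy a ha
    apply hc1 _ h6
    apply smul_one_inj (V := V)
    rw [← hc _ h6, one_smul]
    exact h3
  have hcomm := cj_comm h hc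
  have : Finite (Wts (cj ρ) E) := ws_finite _ hE hcomm
  have : Fintype (Wts (cj ρ) E) := Fintype.ofFinite _
  have hdec : Dec (fun ω : Wts (cj ρ) E => ws (resE (cj ρ) E) ω.1) := ws_dec _ hE hcomm
  have h1 := count h hc hc1 x
  have h2 := hdec.finrank
  rw [← h2] at h1
  let C' : Submodule K (Module.End K V) :=
    { carrier := {T | cj ρ x T = T}
      add_mem' := fun {a b} ha hb => by
        show cj ρ x (a + b) = a + b
        rw [map_add]; exact congrArg₂ _ ha hb
      zero_mem' := map_zero _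
      smul_mem' := fun k {a} ha => by
        show cj ρ x (k • a) = k • a
        rw [map_smul]; exact congrArg _ ha }
  have hC' : ∀ T, T ∈ C' ↔ cj ρ x T = T := fun T => Iff.rfl
  have h3 := hdec.fix (p := p) (cj ρ x) (MulAction.toPermHom G (Wts (cj ρ) E) x)
    (fun ω v hv => smul_mem (cj ρ) E x ω hv) (by
      intro v
      rw [← map_pow, hx, map_one]; rfl) (by rw [← map_pow, hx, map_one]) C' hC'
  have h4 : ∀ ω : Wts (cj ρ) E, MulAction.toPermHom G (Wts (cj ρ) E) x ω = x • ω := fun ω => rfl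
  simp only [h4] at h3
  set F := ∑ ω ∈ Finset.univ.filter (fun ω : Wts (cj ρ) E => x • ω = ω), Module.finrank K (ws (resE (cj ρ) E) ω.1) with hF
  set N := ∑ ω ∈ Finset.univ.filter (fun ω : Wts (cj ρ) E => ¬ x • ω = ω), Module.finrank K (ws (resE (cj ρ) E) ω.1) with hN
  have h5 : F + N = Module.finrank K (Module.End K V) := by
    rw [h2]
    exact Finset.sum_filter_add_sum_filter_not _ _ _
  have h6 : ∑ ω ∈ Finset.univ.filter (fun ω : Wts (cj ρ) E => x • ω = ω),
      Module.finrank K (C' ⊓ ws (resE (cj ρ) E) ω.1 : Submodule K (Module.End K V)) ≤ F :=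
    Finset.sum_le_sum (fun ω _ => Submodule.finrank_mono inf_le_right)
  have h7 : p * Module.finrank K C' ≤ p * F + N := h3.trans (Nat.add_le_add_right (Nat.mul_le_mul_left _ h6) _)
  have h8 := lower (ρ x) hx1 C hC C' (by
    intro T hT
    rw [hC', cj_apply, hT, mul_assoc, rho_mul_inv, mul_one])
  have h9 := h.bound hp3 hx hgen
  have h10 : Module.finrank K (Module.End K V) = Module.finrank K V * Module.finrank K V := Module.finrank_linearMap K K V V
  rw [h10] at h1 h5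
  have ht0 : 0 < Nat.card (E ⧸ (DD E Z x).subgroupOf E) := Nat.card_pos
  generalize Nat.card (E ⧸ (DD E Z x).subgroupOf E) = t at *
  generalize Module.finrank K V = d at *
  generalize Module.finrank K C = r at *
  generalize Module.finrank K C' = r' at *
  generalize F = F' at *
  generalize N = N' at *
  -- t F ≤ d², F + N = d², p r' ≤ p F + N, r² + 1 ≤ r', 4 (p-1) ≤ t (p-4)
  obtain ⟨s, rfl⟩ : ∃ s, p = s + 4 := ⟨p - 4, by omega⟩
  have e1 : s + 4 - 1 = s + 3 := by omega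
  have e2 : s + 4 - 4 = s := by omega
  rw [e1, e2] at h9
  have k1 : (s + 4) * r' ≤ (s + 3) * F' + d * d := by nlinarith
  have k2 : t * ((s + 4) * r') ≤ (s + 3) * (d * d) + t * (d * d) := by
    calc t * ((s + 4) * r') ≤ t * ((s + 3) * F' + d * d) := Nat.mul_le_mul_left _ k1
      _ = (s + 3) * (t * F') + t * (d * d) := by ring
      _ ≤ _ := Nat.add_le_add_right (Nat.mul_le_mul_left _ h1) _
  have k3 : (t * (s + 4)) * (4 * r') ≤ (t * (s + 4)) * (d * d) := by
    calc (t * (s + 4)) * (4 * r') = 4 * (t * ((s + 4) * r')) := by ring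
      _ ≤ 4 * ((s + 3) * (d * d) + t * (d * d)) := Nat.mul_le_mul_left _ k2
      _ = (4 * (s + 3)) * (d * d) + 4 * t * (d * d) := by ring
      _ ≤ (t * s) * (d * d) + 4 * t * (d * d) := Nat.add_le_add_right (Nat.mul_le_mul_right _ h9) _
      _ = _ := by ring
  have k4 : 4 * r' ≤ d * d := Nat.le_of_mul_le_mul_left k3 (by positivity)
  have k5 : 4 * (r ^ 2 + 1) ≤ d * d := (Nat.mul_le_mul_left 4 h8).trans k4
  by_contra hcon
  push Not at hcon
  nlinarith

end Count

end Cfsg.Agent.Lib.H12Fix
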