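import Cfsg.Agent.Lib.H12Fix8
import Cfsg.Agent.Lib.Fitting

/-! The fixed space of an element of prime order `p > 3` whose conjugates generate a solvable group. -/

set_option autoImplicit false
set_option maxHeartbeats 400000

namespace Cfsg.Agent.Lib.H12Fix

open Module
open scoped commutatorElement

/-- A `p`-group acting additively on an elementary abelian group has a nonzero fixed point in the
closure of any orbit. -/
theorem exists_fixed_vec' {p : ℕ} [hp : Fact p.Prime] {P : Type*} [Group P] [Finite P]
    (hP : IsPGroup p P) {V : Type*} [AddCommGroup V] (hV : ∀ v : V, p • v = 0) (f : P → V →+ V)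
    (hf : ∀ (g h : P) (v : V), f (g * h) v = f g (f h v)) {v0 : V} (h1 : f 1 v0 = v0)
    (h0 : v0 ≠ 0) :
    ∃ v ≠ 0, v ∈ AddSubgroup.closure (Set.range fun g => f g v0) ∧ ∀ g, f g v = v := by
  classical
  set W := AddSubgroup.closure (Set.range fun g => f g v0) with hW
  have hstab : ∀ g, ∀ w ∈ W, f g w ∈ W := by
    intro g w hw
    have h2 : W ≤ W.comap (f g) := by
      rw [hW, AddSubgroup.closure_le]
      rintro _ ⟨h, rfl⟩
      show f g (f h v0) ∈ W
      rw [← hf]
      exact AddSubgroup.subset_closure ⟨g * h, rfl⟩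
    exact h2 hw
  have hone : ∀ w ∈ W, f 1 w = w := by
    intro w hw
    have h2 : W ≤ (f 1 - AddMonoidHom.id V).ker := by
      rw [hW, AddSubgroup.closure_le]
      rintro _ ⟨h, rfl⟩
      show (f 1 - AddMonoidHom.id V) (f h v0) = 0
      rw [AddMonoidHom.sub_apply, ← hf, one_mul, AddMonoidHom.id_apply, sub_self]
    have h3 : (f 1 - AddMonoidHom.id V) w = 0 := h2 hw
    rw [AddMonoidHom.sub_apply, AddMonoidHom.id_apply, sub_eq_zero] at h3
    exact h3
  have hfin : Finite W := by
    have hfg : AddGroup.FG W := by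
      rw [AddGroup.fg_iff_addSubgroup_fg]
      exact ⟨(Set.finite_range fun g => f g v0).toFinset, by rw [Set.Finite.coe_toFinset]⟩
    refine AddCommGroup.finite_of_fg_isAddTorsion W ?_
    intro w
    rw [isOfFinAddOrder_iff_nsmul_eq_zero]
    exact ⟨p, hp.out.pos, Subtype.ext (hV w)⟩
  let act : MulAction P W :=
    { smul := fun g w => ⟨f g w, hstab g w w.2⟩
      one_smul := fun w => Subtype.ext (hone w w.2)
      mul_smul := fun g h w => Subtype.ext (hf g h w) }
  have hv0 : v0 ∈ W := by
    have : f 1 v0 ∈ W := AddSubgroup.subset_closure ⟨1, rfl⟩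
    rwa [h1] at this
  have hdvd : p ∣ Nat.card W := by
    have h2 : addOrderOf (⟨v0, hv0⟩ : W) = p := by
      refine addOrderOf_eq_prime (Subtype.ext (hV v0)) ?_
      intro h
      exact h0 (congrArg Subtype.val h)
    rw [← h2]
    exact addOrderOf_dvd_natCard _
  have h0W : (0 : W) ∈ MulAction.fixedPoints P W := by
    intro g
    exact Subtype.ext (map_zero (f g))
  obtain ⟨w, hw, hw0⟩ := hP.exists_fixed_point_of_prime_dvd_card_of_fixed_point W hdvd h0W
  refine ⟨w, fun h => hw0 (Subtype.ext h.symm), w.2, fun g => congrArg Subtype.val (hw g)⟩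


section Closed

variable {K : Type*} [Field K] {V : Type*} [AddCommGroup V] [Module K V] {G : Type*} [Group G]

/-- restriction to an invariant subspace -/
def resSub (ρ : G →* Module.End K V) (S : Submodule K V) (hS : ∀ g, ∀ v ∈ S, ρ g v ∈ S) : G →* Module.End K S where
  toFun g := (ρ g).restrict (hS g)
  map_one' := by
    apply LinearMap.ext
    intro v
    apply Subtype.ext
    show ρ 1 (v : V) = v
    rw [map_one]; rfl
  map_mul' g h := by
    apply LinearMap.ext
    intro v
    apply Subtype.ext
    show ρ (g * h) (v : V) = ρ g (ρ h v)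
    rw [map_mul]; rfl

theorem resSub_apply (ρ : G →* Module.End K V) (S : Submodule K V) (hS : ∀ g, ∀ v ∈ S, ρ g v ∈ S) (g : G) (v : S) :
    ((resSub ρ S hS g v : S) : V) = ρ g v := rfl

theorem closed_case [IsAlgClosed K] [FiniteDimensional K V] [Nontrivial V] [Finite G] [Group.IsSolvable G]
    {p q : ℕ} [hp : Fact p.Prime] [hq : Fact q.Prime] (hp3 : 3 < p) (ρ : G →* Module.End K V) {x : G} (hx : x ^ p = 1)
    (hgen : Subgroup.normalClosure ({x} : Set G) = ⊤) (E : Subgroup G) (hEn : E.Normal) (hEq : IsPGroup q E)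
    (hE : (Nat.card E : K) ≠ 0) (hEc : ¬ E ≤ Subgroup.center G)
    (hmin : ∀ N : Subgroup G, N.Normal → N ≤ E → N ≠ E → N ≤ Subgroup.center G)
    (h0 : ∀ N : Subgroup G, N.Normal → N ≤ E → N ≠ ⊥ → ∀ v, (∀ n ∈ N, ρ n v = v) → v = 0)
    (C : Submodule K V) (hC : ∀ v, v ∈ C ↔ ρ x v = v) :
    2 * Module.finrank K C < Module.finrank K V := by
  classical
  by_cases hab : ∀ a ∈ E, ∀ b ∈ E, a * b = b * a
  · -- the abelian case
    refine abelian_case hp3 ρ hx hgen E hE hab ?_ C hC
    intro l
    by_contra hcon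
    push Not at hcon
    obtain ⟨v, hv, hv0⟩ := (Submodule.ne_bot_iff _).1 l.2
    apply hv0
    let S : Subgroup G :=
      { carrier := {g | ρ g v = v}
        mul_mem' := fun {a b} ha hb => by
          show ρ (a * b) v = v
          rw [map_mul, Module.End.mul_apply]
          have h1 : ρ b v = v := hb
          rw [h1]; exact ha
        one_mem' := by show ρ 1 v = v; rw [map_one]; rfl
        inv_mem' := fun {a} ha => by
          show ρ a⁻¹ v = v
          have h1 : ρ a v = v := ha
          apply inj_of_group ρ a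
          rw [← Module.End.mul_apply, rho_mul_inv, h1]; rfl }
    have hS : ∀ g, g ∈ S ↔ ρ g v = v := fun g => Iff.rfl
    have hcomm : ⁅E, (⊤ : Subgroup G)⁆ ≤ S := by
      rw [Subgroup.commutator_le]
      intro e he g _
      rw [hS]
      have e1 : ⁅e, g⁆ = e * (g * e * g⁻¹)⁻¹ := by rw [commutatorElement_def]; group
      have hge : g * e * g⁻¹ ∈ E := hEn.conj_mem e he g
      have h2 : ρ e v = l.1 ⟨e, he⟩ • v := mem_ws.1 hv ⟨e, he⟩
      have h3 : ρ (g * e * g⁻¹) v = l.1 ⟨g * e * g⁻¹, hge⟩ • v := mem_ws.1 hv ⟨_, hge⟩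
      have h4 : l.1 ⟨e, he⟩ = l.1 ⟨g * e * g⁻¹, hge⟩ := by
        have h5 := congrFun (congrArg Subtype.val (hcon g)) ⟨g * e * g⁻¹, hge⟩
        rw [← h5]
        show _ = l.1 (MulAut.conjNormal g⁻¹ ⟨g * e * g⁻¹, hge⟩)
        have h5' : (⟨e, he⟩ : E) = MulAut.conjNormal g⁻¹ ⟨g * e * g⁻¹, hge⟩ := by
          apply Subtype.ext
          rw [MulAut.conjNormal_apply]
          show e = g⁻¹ * (g * e * g⁻¹) * g⁻¹⁻¹
          group
        rw [h5']
      have h6 : ρ (g * e * g⁻¹) v = ρ e v := by rw [h3, h2, h4]
      rw [e1, map_mul, Module.End.mul_apply]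
      apply inj_of_group ρ e⁻¹
      rw [← Module.End.mul_apply, rho_inv_mul, Module.End.one_apply]
      apply inj_of_group ρ (g * e * g⁻¹)
      rw [← Module.End.mul_apply, rho_mul_inv, Module.End.one_apply]
      have h7 : ρ (e⁻¹) v = (l.1 ⟨e, he⟩)⁻¹ • v := by
        have hne : l.1 ⟨e, he⟩ ≠ 0 := by
          intro h0'
          rw [h0', zero_smul] at h2
          exact hv0 (inj_of_group ρ e (h2.trans (map_zero _).symm))
        apply inj_of_group ρ e
        rw [← Module.End.mul_apply, rho_mul_inv, Module.End.one_apply, map_smul, h2, smul_smul, inv_mul_cancel₀ hne,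
          one_smul]
      rw [h7, map_smul, h6, h2, smul_smul, inv_mul_cancel₀, one_smul]
      intro h0'
      rw [h0', zero_smul] at h2
      exact hv0 (inj_of_group ρ e (h2.trans (map_zero _).symm))
    refine h0 ⁅E, (⊤ : Subgroup G)⁆ inferInstance (Subgroup.commutator_le_left E ⊤) ?_ v (fun n hn => hcomm hn)
    intro h1
    apply hEc
    rw [Subgroup.commutator_eq_bot_iff_le_centralizer, Subgroup.coe_top, Subgroup.centralizer_univ] at h1
    exact h1
  · -- the nonabelian case
    let Z : Subgroup G := E ⊓ Subgroup.centralizer (E : Set G)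
    have hZn : Z.Normal := inferInstance
    have hZE : Z ≤ E := inf_le_left
    have hZne : Z ≠ E := by
      intro h1
      apply hab
      intro a ha b hb
      rw [← h1] at hb
      exact (Subgroup.mem_centralizer_iff.1 hb.2 a ha)
    have hZc : Z ≤ Subgroup.center G := hmin Z hZn hZE hZne
    have hnil : Group.IsNilpotent E := hEq.isNilpotent
    have hEE : ⁅E, E⁆ ≤ Subgroup.center G := by
      apply hmin _ inferInstance (Subgroup.commutator_le_left E E)
      intro h1
      have hEnt : Nontrivial E := by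
        rw [Subgroup.nontrivial_iff_ne_bot]
        rintro rfl
        exact hEc bot_le
      have h2 := Group.IsSolvable.commutator_lt_top_of_nontrivial E
      apply h2.ne
      apply Subgroup.map_injective E.subtype_injective
      rw [← MonoidHom.range_eq_map, E.range_subtype, commutator_def, Subgroup.map_commutator, ← MonoidHom.range_eq_map,
        E.range_subtype]
      exact h1
    have hExt : Ext E Z q :=
      { nE := hEn
        hq := hEq
        ZE := hZE
        cen := fun z hz g => Subgroup.mem_center_iff.1 (hZc hz) g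
        com := fun a ha b hb => by
          have h1 : a * b * a⁻¹ * b⁻¹ ∈ ⁅E, E⁆ := by
            rw [← commutatorElement_def]; exact Subgroup.commutator_mem_commutator ha hb
          refine Subgroup.mem_inf.2 ⟨Subgroup.commutator_le_left E E h1, ?_⟩
          rw [Subgroup.mem_centralizer_iff]
          intro g _
          exact Subgroup.mem_center_iff.1 (hEE h1) g
        self := fun a ha h1 => by
          refine Subgroup.mem_inf.2 ⟨ha, ?_⟩
          rw [Subgroup.mem_centralizer_iff]
          intro g hg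
          exact (h1 g hg).symm
        min := fun N hN hNE hNne => le_inf hNE ((hmin N hN hNE hNne).trans (Subgroup.center_le_centralizer _))
        ne := fun h1 => hZne (le_antisymm hZE h1) }
    have hZab : ∀ a b : Z, resE ρ Z a * resE ρ Z b = resE ρ Z b * resE ρ Z a := by
      intro a b
      rw [← map_mul, ← map_mul]
      congr 1
      exact Subtype.ext (Subgroup.mem_center_iff.1 (hZc b.2) a)
    have hZK : (Nat.card Z : K) ≠ 0 := by
      obtain ⟨m, hm⟩ := Subgroup.card_dvd_of_le hZE
      intro h1
      apply hE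
      rw [hm, Nat.cast_mul, h1, zero_mul]
    have : Finite (Wts ρ Z) := ws_finite _ hZK hZab
    have : Fintype (Wts ρ Z) := Fintype.ofFinite _
    have hdec : Dec (fun ω : Wts ρ Z => ws (resE ρ Z) ω.1) := ws_dec _ hZK hZab
    have hinv : ∀ (ω : Wts ρ Z) (g : G), ∀ v ∈ ws (resE ρ Z) ω.1, ρ g v ∈ ws (resE ρ Z) ω.1 := by
      intro ω g v hv
      rw [mem_ws] at hv ⊢
      intro z
      have h1 : ρ (z : G) (ρ g v) = ρ g (ρ (z : G) v) := by
        rw [← Module.End.mul_apply, ← Module.End.mul_apply, ← map_mul, ← map_mul]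
        rw [Subgroup.mem_center_iff.1 (hZc z.2) g]
      have h2 : ρ (z : G) v = ω.1 z • v := hv z
      show ρ (z : G) (ρ g v) = _
      rw [h1, h2, map_smul]
    have h3 := hdec.fix (p := p) (ρ x) (1 : Equiv.Perm (Wts ρ Z)) (fun ω v hv => hinv ω x v hv) (by
      intro v
      rw [← map_pow, hx, map_one]; rfl) (one_pow p) C hC
    have h4 : Finset.univ.filter (fun ω : Wts ρ Z => (1 : Equiv.Perm (Wts ρ Z)) ω = ω) = Finset.univ := by
      apply Finset.filter_true_of_mem; intro ω _; rfl
    have h5 : Finset.univ.filter (fun ω : Wts ρ Z => (1 : Equiv.Perm (Wts ρ Z)) ω ≠ ω) = ∅ := by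
      apply Finset.filter_false_of_mem; intro ω _ h; exact h rfl
    rw [h4, h5, Finset.sum_empty, add_zero] at h3
    have h6 : Module.finrank K C ≤ ∑ ω : Wts ρ Z, Module.finrank K (C ⊓ ws (resE ρ Z) ω.1 : Submodule K V) :=
      Nat.le_of_mul_le_mul_left h3 hp.out.pos
    have h7 : ∀ ω : Wts ρ Z, 2 * Module.finrank K (C ⊓ ws (resE ρ Z) ω.1 : Submodule K V) <
        Module.finrank K (ws (resE ρ Z) ω.1) := by
      intro ω
      set S := ws (resE ρ Z) ω.1 with hS
      have hnt : Nontrivial S := Submodule.nontrivial_iff_ne_bot.2 ω.2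
      let c : G → K := fun z => if h : z ∈ Z then ω.1 ⟨z, h⟩ else 0
      have hcS : ∀ z ∈ Z, ∀ v ∈ S, ρ z v = c z • v := by
        intro z hz v hv
        have h1 : ρ z v = ω.1 ⟨z, hz⟩ • v := mem_ws.1 hv ⟨z, hz⟩
        have h2 : c z = ω.1 ⟨z, hz⟩ := dif_pos hz
        rw [h1, h2]
      have h8 := nonabelian_case (ρ := resSub ρ S (hinv ω)) (c := c) hExt hp3 hx hgen hE (by
        intro z hz
        apply LinearMap.ext
        intro v
        apply Subtype.ext
        rw [resSub_apply, hcS z hz v v.2]; rfl) (by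
        intro z hz hcz
        by_contra hz1
        obtain ⟨v, hv, hv0⟩ := (Submodule.ne_bot_iff _).1 ω.2
        apply hv0
        have hzn : (Subgroup.zpowers z).Normal := by
          refine ⟨fun n hn g => ?_⟩
          have h9 : n ∈ Subgroup.center G := (Subgroup.zpowers_le.2 (hZc hz)) hn
          rw [Subgroup.mem_center_iff.1 h9 g, mul_assoc, mul_inv_cancel, mul_one]
          exact hn
        refine h0 (Subgroup.zpowers z) hzn (by rw [Subgroup.zpowers_le]; exact hZE hz) (by
          rw [Ne, Subgroup.zpowers_eq_bot]; exact hz1) v ?_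
        intro n hn
        have h10 : ρ z v = v := by rw [hcS z hz v hv, hcz, one_smul]
        obtain ⟨k, rfl⟩ := Subgroup.mem_zpowers_iff.1 hn
        obtain ⟨k, hk⟩ : ∃ m : ℕ, z ^ m = z ^ k := by
          have := (mem_powers_iff_mem_zpowers (x := z) (y := z ^ k)).2 ⟨k, rfl⟩
          obtain ⟨m, hm⟩ := this
          exact ⟨m, hm⟩
        rw [← hk, map_pow]
        clear hk hn
        induction k with
        | zero => rfl
        | succ k ih => rw [pow_succ, Module.End.mul_apply, h10, ih]) (C.comap S.subtype) (by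
        intro v
        rw [Submodule.mem_comap, hC]
        constructor
        · intro h; exact Subtype.ext h
        · intro h; exact congrArg Subtype.val h)
      have h9 : Module.finrank K (C.comap S.subtype) = Module.finrank K (C ⊓ S : Submodule K V) := by
        rw [inf_comm, ← Submodule.map_comap_subtype]
        exact (Submodule.finrank_map_subtype_eq S _).symm
      rw [← h9]
      exact h8
    have hdt := hdec.finrank
    have hne : (Finset.univ : Finset (Wts ρ Z)).Nonempty := by
      by_contra hcon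
      rw [Finset.not_nonempty_iff_eq_empty] at hcon
      rw [hcon, Finset.sum_empty] at hdt
      have : 0 < Module.finrank K V := Module.finrank_pos
      omega
    calc 2 * Module.finrank K C ≤ 2 * ∑ ω : Wts ρ Z, Module.finrank K (C ⊓ ws (resE ρ Z) ω.1 : Submodule K V) :=
          Nat.mul_le_mul_left _ h6
      _ = ∑ ω : Wts ρ Z, 2 * Module.finrank K (C ⊓ ws (resE ρ Z) ω.1 : Submodule K V) := by rw [Finset.mul_sum]
      _ < ∑ ω : Wts ρ Z, Module.finrank K (ws (resE ρ Z) ω.1) := Finset.sum_lt_sum_of_nonempty hne (fun ω _ => h7 ω)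
      _ = _ := hdt.symm

end Closed

end Cfsg.Agent.Lib.H12Fix
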