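import Cfsg.Agent.Lib.H12Fix9

/-! The fixed space of an element of prime order `p > 3` whose conjugates generate a solvable group. -/

set_option autoImplicit false
set_option maxHeartbeats 400000

namespace Cfsg.Agent.Lib.H12Fix

open Module TensorProduct

section FieldCase

variable {k : Type*} [Field k] {V : Type*} [AddCommGroup V] [Module k V] {G : Type*} [Group G]

/-- the subspace fixed by the elements of a subgroup -/
def fixSub (ρ : G →* Module.End k V) (N : Subgroup G) : Submodule k V where
  carrier := {v | ∀ n ∈ N, ρ n v = v}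
  add_mem' := fun {a b} ha hb n hn => by rw [map_add, ha n hn, hb n hn]
  zero_mem' := fun n _ => map_zero _
  smul_mem' := fun c a ha n hn => by rw [map_smul, ha n hn]

theorem fixSub_inv (ρ : G →* Module.End k V) (N : Subgroup G) [hN : N.Normal] (g : G) {v : V} (hv : v ∈ fixSub ρ N) :
    ρ g v ∈ fixSub ρ N := by
  intro n hn
  have h1 : n * g = g * (g⁻¹ * n * g) := by group
  have h2 : g⁻¹ * n * g ∈ N := by
    have := hN.conj_mem n hn g⁻¹
    rwa [inv_inv] at this
  rw [← Module.End.mul_apply, ← map_mul, h1, map_mul, Module.End.mul_apply, hv _ h2]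

theorem fixSub_eq_bot (ρ : G →* Module.End k V) (hinj : Function.Injective ρ)
    (hirr : ∀ W : Submodule k V, (∀ g, ∀ w ∈ W, ρ g w ∈ W) → W = ⊥ ∨ W = ⊤) (N : Subgroup G) [hN : N.Normal]
    (hN1 : N ≠ ⊥) : fixSub ρ N = ⊥ := by
  rcases hirr (fixSub ρ N) (fun g w hw => fixSub_inv ρ N g hw) with h | h
  · exact h
  · exfalso
    apply hN1
    rw [eq_bot_iff]
    intro n hn
    rw [Subgroup.mem_bot]
    apply hinj
    rw [map_one]
    apply LinearMap.ext
    intro v
    have : v ∈ fixSub ρ N := by rw [h]; trivial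
    exact this n hn

theorem sum_eq_zero_of (ρ : G →* Module.End k V) (N : Subgroup G) [Fintype N] (h : fixSub ρ N = ⊥) :
    ∑ n : N, ρ (n : G) = 0 := by
  apply LinearMap.ext
  intro v
  rw [LinearMap.zero_apply, ← Submodule.mem_bot k, ← h]
  intro n hn
  rw [← Module.End.mul_apply, Finset.mul_sum]
  congr 1
  exact Fintype.sum_equiv (Equiv.mulLeft (⟨n, hn⟩ : N)) _ _ (fun m => by rw [← map_mul]; rfl)

theorem char_ne (ρ : G →* Module.End k V) [Nontrivial V] (hinj : Function.Injective ρ)
    (hirr : ∀ W : Submodule k V, (∀ g, ∀ w ∈ W, ρ g w ∈ W) → W = ⊥ ∨ W = ⊤) {ℓ : ℕ} [Fact ℓ.Prime] [CharP k ℓ]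
    (N : Subgroup G) [hN : N.Normal] [Finite N] (hN1 : N ≠ ⊥) : ¬ IsPGroup ℓ N := by
  intro hNl
  obtain ⟨v0, hv0⟩ := exists_ne (0 : V)
  obtain ⟨v, hv, -, hfix⟩ := exists_fixed_vec' hNl (V := V) (fun v => by
    rw [← Nat.cast_smul_eq_nsmul k, CharP.cast_eq_zero, zero_smul]) (fun n => (ρ (n : G)).toAddMonoidHom)
    (fun g h v => by
      show ρ ((g * h : N) : G) v = ρ (g : G) (ρ (h : G) v)
      rw [Subgroup.coe_mul, map_mul]; rfl) (v0 := v0) (by
      show ρ ((1 : N) : G) v0 = v0
      rw [Subgroup.coe_one, map_one]; rfl) hv0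
  apply hv
  have : v ∈ fixSub ρ N := fun n hn => hfix ⟨n, hn⟩
  rw [fixSub_eq_bot ρ hinj hirr N hN1] at this
  exact this

theorem field_case [FiniteDimensional k V] [Nontrivial V] [Finite G] [Group.IsSolvable G] {p ℓ : ℕ} [hp : Fact p.Prime]
    [Fact ℓ.Prime] [CharP k ℓ] (hp3 : 3 < p) (ρ : G →* Module.End k V) (hinj : Function.Injective ρ)
    (hirr : ∀ W : Submodule k V, (∀ g, ∀ w ∈ W, ρ g w ∈ W) → W = ⊥ ∨ W = ⊤) {x : G} (hx : x ^ p = 1) (hx1 : x ≠ 1)
    (hgen : Subgroup.normalClosure ({x} : Set G) = ⊤) (C : Submodule k V) (hC : ∀ v, v ∈ C ↔ ρ x v = v) :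
    2 * Module.finrank k C < Module.finrank k V := by
  classical
  by_cases hF : Cfsg.fittingSubgroup G ≤ Subgroup.center G
  · -- `G` is abelian
    have h1 : Subgroup.center G = ⊤ := by
      rw [eq_top_iff]
      intro g _
      apply hF
      apply Fitting.centralizer_fittingSubgroup_le
      rw [Subgroup.mem_centralizer_iff]
      intro f hf
      exact (Subgroup.mem_center_iff.1 (hF hf) g).symm
    have hCinv : ∀ g, ∀ w ∈ C, ρ g w ∈ C := by
      intro g w hw
      rw [hC] at hw ⊢
      have hxc : x ∈ Subgroup.center G := by rw [h1]; trivial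
      rw [← Module.End.mul_apply, ← map_mul, ← Subgroup.mem_center_iff.1 hxc g, map_mul, Module.End.mul_apply, hw]
    rcases hirr C hCinv with h | h
    · rw [h, finrank_bot, mul_zero]
      exact Module.finrank_pos
    · exfalso
      apply hx1
      apply hinj
      rw [map_one]
      apply LinearMap.ext
      intro v
      exact (hC v).1 (by rw [h]; trivial)
  · -- a minimal noncentral normal `q`-subgroup
    obtain ⟨q0, hq0⟩ : ∃ q : Nat.Primes, ¬ Cfsg.pCore (q : ℕ) G ≤ Subgroup.center G := by
      by_contra hcon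
      push Not at hcon
      apply hF
      rw [Fitting.fittingSubgroup_eq_iSup_pCore]
      exact iSup_le hcon
    have hq : Fact ((q0 : ℕ)).Prime := ⟨q0.2⟩
    set q : ℕ := (q0 : ℕ) with hqdef
    have hne : ({N : Subgroup G | N.Normal ∧ IsPGroup q N ∧ ¬ N ≤ Subgroup.center G}).Nonempty :=
      ⟨Cfsg.pCore q G, inferInstance, Fitting.isPGroup_pCore q, hq0⟩
    obtain ⟨E, hE⟩ := Set.Finite.exists_minimal (Set.toFinite _) hne
    obtain ⟨hEn, hEq, hEc⟩ := hE.prop
    have hmin : ∀ N : Subgroup G, N.Normal → N ≤ E → N ≠ E → N ≤ Subgroup.center G := by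
      intro N hN hNE hNne
      by_contra hcon
      exact hNne (le_antisymm hNE (hE.le_of_le ⟨hN, hEq.to_le hNE, hcon⟩ hNE))
    have hE1 : E ≠ ⊥ := by rintro rfl; exact hEc bot_le
    have hql : q ≠ ℓ := by
      rintro h
      rw [h] at hEq
      exact char_ne ρ hinj hirr E hE1 hEq
    have hEk : (Nat.card E : k) ≠ 0 := by
      obtain ⟨n, hn⟩ := IsPGroup.iff_card.1 hEq
      rw [hn]
      intro h0
      rw [Nat.cast_pow] at h0
      have h1 : (q : k) = 0 := eq_zero_of_pow_eq_zero h0
      rw [CharP.cast_eq_zero_iff k ℓ] at h1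
      exact hql ((Nat.prime_dvd_prime_iff_eq (Fact.out) hq.out).1 h1).symm
    -- base change
    let K := AlgebraicClosure k
    let B := Module.End.baseChangeHom k K V
    have hKcast : ∀ m : ℕ, (m : k) ≠ 0 → (m : K) ≠ 0 := by
      intro m hm h
      apply hm
      have h1 : algebraMap k K (m : k) = 0 := by rw [map_natCast]; exact h
      exact (map_eq_zero _).mp h1
    let ρ' : G →* Module.End K (K ⊗[k] V) := B.toMonoidHom.comp ρ
    have hρ' : ∀ g, ρ' g = (ρ g).baseChange K := fun g => rfl
    have hfr : Module.finrank K (K ⊗[k] V) = Module.finrank k V := Module.finrank_baseChange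
    have hnt : Nontrivial (K ⊗[k] V) := by
      apply Module.nontrivial_of_finrank_pos (R := K)
      rw [hfr]; exact Module.finrank_pos
    let C' : Submodule K (K ⊗[k] V) := LinearMap.ker (ρ' x - 1)
    have hC' : ∀ v, v ∈ C' ↔ ρ' x v = v := by
      intro v
      rw [LinearMap.mem_ker, LinearMap.sub_apply, Module.End.one_apply, sub_eq_zero]
    have hCC : Module.finrank k C ≤ Module.finrank K C' := by
      let f : K ⊗[k] C →ₗ[K] K ⊗[k] V := C.subtype.baseChange K
      have hfi : Function.Injective f := by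
        have := Module.Flat.lTensor_preserves_injective_linearMap (M := K) C.subtype C.subtype_injective
        exact this
      have hfC : ∀ v, f v ∈ C' := by
        intro v
        rw [hC', hρ']
        show ((ρ x).baseChange K) ((C.subtype.baseChange K) v) = (C.subtype.baseChange K) v
        rw [← LinearMap.comp_apply, ← LinearMap.baseChange_comp]
        congr 1
        congr 1
        apply LinearMap.ext
        intro c
        exact (hC c).1 c.2
      have h1 := LinearMap.finrank_le_finrank_of_injective (f := f.codRestrict C' hfC) (by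
        intro a b hab
        exact hfi (congrArg Subtype.val hab))
      rwa [Module.finrank_baseChange] at h1
    have key := closed_case (K := K) hp3 ρ' hx hgen E hEn hEq (hKcast _ hEk) hEc hmin (by
      intro N hN hNE hN1 v hv
      have hfN : Fintype N := Fintype.ofFinite N
      have h1 := sum_eq_zero_of ρ N (fixSub_eq_bot ρ hinj hirr N hN1)
      have h2 := congrArg B h1
      rw [map_sum, map_zero] at h2
      have h3 : ∑ n : N, ρ' (n : G) v = 0 := by
        have := LinearMap.congr_fun h2 v
        rw [LinearMap.sum_apply] at this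
        exact this
      have h4 : ∑ n : N, ρ' (n : G) v = (Nat.card N : K) • v := by
        rw [Finset.sum_congr rfl (fun (n : N) _ => hv n n.2), Finset.sum_const, Finset.card_univ,
          Nat.card_eq_fintype_card, Nat.cast_smul_eq_nsmul]
      rw [h4, smul_eq_zero] at h3
      rcases h3 with h3 | h3
      · exfalso
        apply hKcast (Nat.card N) _ h3
        obtain ⟨m, hm⟩ := Subgroup.card_dvd_of_le hNE
        intro h5
        apply hEk
        rw [hm, Nat.cast_mul, h5, zero_mul]
      · exact h3) C' hC'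
    rw [hfr] at key
    omega

end FieldCase

end Cfsg.Agent.Lib.H12Fix
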