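import Cfsg.Agent.Lib.PG3

/-!
# Characterization of PGU(3,q), q even: the order (helper76)
-/

set_option autoImplicit false

namespace Cfsg.Agent.Lib.PG

open Subgroup

theorem final_num {q m d1 e : ℕ} (hq : 4 ≤ q) (he : Even q) (h1 : q + 1 = d1 * e) (h2 : m = q ^ 3 * e) (h3 : (q - 1) ∣ m - 1) :
    e = 1 := by
  obtain ⟨r, rfl⟩ : ∃ r, q = r + 1 := ⟨q - 1, by omega⟩
  have he0 : 0 < e := by
    rcases Nat.eq_zero_or_pos e with h | h
    · rw [h, mul_zero] at h1; omega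
    · exact h
  have hd0 : 0 < d1 := by
    rcases Nat.eq_zero_or_pos d1 with h | h
    · rw [h, zero_mul] at h1; omega
    · exact h
  obtain ⟨f, rfl⟩ : ∃ f, e = f + 1 := ⟨e - 1, by omega⟩
  have h4 : m - 1 = r * ((r ^ 2 + 3 * r + 3) * (f + 1)) + f := by
    rw [h2]
    have : (r + 1) ^ 3 * (f + 1) = r * ((r ^ 2 + 3 * r + 3) * (f + 1)) + f + 1 := by ring
    omega
  rw [h4, show r + 1 - 1 = r by omega] at h3
  have h5 : r ∣ f := (Nat.dvd_add_right (dvd_mul_right _ _)).1 h3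
  have h6 : f + 1 ≤ r + 1 + 1 := by
    rw [h1]; exact Nat.le_mul_of_pos_left _ hd0
  obtain ⟨c, rfl⟩ := h5
  rcases c with _ | _ | c
  · rfl
  · exfalso
    have h7 : Odd (d1 * (r * (0 + 1) + 1)) := by
      rw [← h1]; exact he.add_one
    rw [Nat.odd_mul] at h7
    have h8 := h7.2
    rw [show r * (0 + 1) + 1 = r + 1 by ring] at h8
    exact absurd he (Nat.not_even_iff_odd.2 h8)
  · exfalso
    nlinarith

section
variable {G : Type*} [Group G] [Finite G] {q : ℕ} (h : St G q)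
include h

theorem St.card_inv (P : Sylow 2 G) : Nat.card {x : G // x ∈ P ∧ x * x = 1 ∧ x ≠ 1} = q - 1 := by
  have h1 := h.inv P
  have h2 : ({x : G | x ∈ P ∧ x * x = 1 ∧ x ≠ 1}).ncard = ({x : G | x ∈ P ∧ x * x = 1}).ncard - 1 := by
    have h3 : {x : G | x ∈ P ∧ x * x = 1 ∧ x ≠ 1} = {x : G | x ∈ P ∧ x * x = 1} \ {1} := by
      ext x
      simp only [Set.mem_setOf_eq, Set.mem_sdiff, Set.mem_singleton_iff]
      tauto
    rw [h3, Set.ncard_sdiff_singleton_of_mem]
    exact ⟨(P : Subgroup G).one_mem, by rw [mul_one]⟩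
  have h4 : Nat.card {x : G // x ∈ P ∧ x * x = 1 ∧ x ≠ 1} = ({x : G | x ∈ P ∧ x * x = 1 ∧ x ≠ 1}).ncard := Nat.card_coe_set_eq _
  have h5 : Nat.card {x : G // x ∈ P ∧ x * x = 1} = ({x : G | x ∈ P ∧ x * x = 1}).ncard := Nat.card_coe_set_eq _
  rw [h4, h2, ← h5, h1]

variable (s : Sw G)
include s

theorem St.card_D {P R : Sylow 2 G} (hPR : P ≠ R) :
    Nat.card ↥(MulAction.stabilizer G P ⊓ MulAction.stabilizer G R) = (q - 1) * Nat.card ↥(M P ⊓ MulAction.stabilizer G R) := by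
  obtain ⟨w0, hw, hwP, hwR⟩ := h.exists_swap' s hPR
  obtain ⟨u, hu, hu2, hu1⟩ := h.exists_inv P
  have hj := fun x : {x : G // x ∈ P ∧ x * x = 1 ∧ x ≠ 1} => h.exists_j s hPR hw hwP hu hu2 hu1 x.2.1 x.2.2.1 x.2.2.2
  choose w hw1 hw2 hw3 using hj
  rw [← h.card_inv P, ← Nat.card_prod]
  symm
  have hMP : ∀ e ∈ M P, e • P = P := fun e he => (h.of_comm P e u hu hu2 hu1 (he u hu hu2)).1
  have hjP : ∀ x, (w x * w0) • P = P := fun x => by rw [mul_smul, hwP, swap_symm (hw1 x) (hw2 x)]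
  have hjR : ∀ x, (w x * w0) • R = R := fun x => by rw [mul_smul, hwR, hw2 x]
  have hval : ∀ (x : {x : G // x ∈ P ∧ x * x = 1 ∧ x ≠ 1}) (e : ↥(M P ⊓ MulAction.stabilizer G R)),
      ((w x * w0) * e) * u * ((w x * w0) * e)⁻¹ = x := by
    intro x e
    have h1 : (e : G) * u = u * e := e.2.1 u hu hu2
    calc ((w x * w0) * e) * u * ((w x * w0) * e)⁻¹ = (w x * w0) * (e * u) * (e : G)⁻¹ * (w x * w0)⁻¹ := by group
      _ = (w x * w0) * u * (w x * w0)⁻¹ := by rw [h1]; group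
      _ = x := hw3 x
  refine Nat.card_eq_of_bijective (fun z => ⟨(w z.1 * w0) * z.2, ?_, ?_⟩) ⟨?_, ?_⟩
  · show ((w z.1 * w0) * (z.2 : G)) • P = P
    rw [mul_smul, hMP _ z.2.2.1, hjP]
  · show ((w z.1 * w0) * (z.2 : G)) • R = R
    rw [mul_smul, show (z.2 : G) • R = R from z.2.2.2, hjR]
  · rintro ⟨x, e⟩ ⟨x', e'⟩ hxx
    have h1 : (w x * w0) * (e : G) = (w x' * w0) * (e' : G) := congrArg Subtype.val hxx
    have h2 : x = x' := by
      apply Subtype.ext
      rw [← hval x e, ← hval x' e', h1]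
    subst h2
    have h3 : e = e' := Subtype.ext (mul_left_cancel h1)
    rw [h3]
  · rintro ⟨d, hdP, hdR⟩
    have hdP' : d • P = P := hdP
    have hdR' : d • R = R := hdR
    have hx : d * u * d⁻¹ ∈ P := by
      have := smul_mem (g := d) hu
      rwa [hdP'] at this
    have hx2 : (d * u * d⁻¹) * (d * u * d⁻¹) = 1 := by
      rw [show d * u * d⁻¹ * (d * u * d⁻¹) = d * (u * u) * d⁻¹ by group, hu2]; group
    have hx1 : d * u * d⁻¹ ≠ 1 := by
      intro h1
      apply hu1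
      calc u = d⁻¹ * (d * u * d⁻¹) * d := by group
        _ = 1 := by rw [h1]; group
    set x : {x : G // x ∈ P ∧ x * x = 1 ∧ x ≠ 1} := ⟨d * u * d⁻¹, hx, hx2, hx1⟩ with hxdef
    have he : ((w x * w0)⁻¹ * d) * u = u * ((w x * w0)⁻¹ * d) := by
      have h4 : u = (w x * w0)⁻¹ * (d * u * d⁻¹) * (w x * w0) := by
        have := hw3 x
        have h5 : (x : G) = d * u * d⁻¹ := rfl
        rw [← h5, ← this]; group
      calc (w x * w0)⁻¹ * d * u = (w x * w0)⁻¹ * (d * u * d⁻¹) * (w x * w0) * ((w x * w0)⁻¹ * d) := by group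
        _ = u * ((w x * w0)⁻¹ * d) := by rw [← h4]
    refine ⟨⟨x, ⟨(w x * w0)⁻¹ * d, (h.of_comm P _ u hu hu2 hu1 he).2, ?_⟩⟩, ?_⟩
    · show ((w x * w0)⁻¹ * d) • R = R
      rw [mul_smul, hdR', inv_smul_eq_iff, hjR]
    · apply Subtype.ext
      show (w x * w0) * ((w x * w0)⁻¹ * d) = d
      group

/-- orbit formula -/
theorem St.card_orbit {P R : Sylow 2 G} (hPR : P ≠ R) :
    (MulAction.orbit (MulAction.stabilizer G P) R).ncard * Nat.card ↥(M P ⊓ MulAction.stabilizer G R) = q ^ 3 * (q + 1) := by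
  have h1 := Subgroup.card_mul_index (MulAction.stabilizer (MulAction.stabilizer G P) R)
  rw [MulAction.index_stabilizer, h.cardN P] at h1
  have h2 : Nat.card (MulAction.stabilizer (MulAction.stabilizer G P) R) =
      Nat.card ↥(MulAction.stabilizer G P ⊓ MulAction.stabilizer G R) := by
    refine Nat.card_congr ⟨fun x => ⟨x.1.1, x.1.2, x.2⟩, fun x => ⟨⟨x.1, x.2.1⟩, x.2.2⟩, fun _ => rfl, fun _ => rfl⟩
  rw [h2, h.card_D s hPR] at h1
  have hq := h.q_odd.2
  have h3 : 0 < q - 1 := by omega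
  apply Nat.eq_of_mul_eq_mul_left h3
  calc (q - 1) * ((MulAction.orbit (MulAction.stabilizer G P) R).ncard * Nat.card ↥(M P ⊓ MulAction.stabilizer G R))
      = (q - 1) * Nat.card ↥(M P ⊓ MulAction.stabilizer G R) * (MulAction.orbit (MulAction.stabilizer G P) R).ncard := by ring
    _ = q ^ 3 * (q + 1) * (q - 1) := h1
    _ = (q - 1) * (q ^ 3 * (q + 1)) := by ring

/-- double transitivity -/
theorem St.trans {P R R' : Sylow 2 G} (hPR : P ≠ R) (hPR' : P ≠ R') : ∃ n : G, n • P = P ∧ n • R = R' := by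
  have hq := h.q_odd
  obtain ⟨p, hp, hpq⟩ := Nat.exists_prime_and_dvd (show q - 1 ≠ 1 by omega)
  have fp : Fact p.Prime := ⟨hp⟩
  have hnd : ∀ T : Sylow 2 G, P ≠ T → ¬ p ∣ Nat.card (MulAction.orbit (MulAction.stabilizer G P) T) := by
    intro T hT hdvd
    rw [Nat.card_coe_set_eq] at hdvd
    have h1 : p ∣ q ^ 3 * (q + 1) := by
      rw [← h.card_orbit s hT]; exact hdvd.mul_right _
    rcases (Nat.Prime.dvd_mul hp).1 h1 with h2 | h2
    · have h3 := hp.dvd_of_dvd_pow h2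
      have h4 := Nat.dvd_sub h3 hpq
      rw [show q - (q - 1) = 1 by omega] at h4
      exact hp.one_lt.ne' (Nat.dvd_one.1 h4)
    · have h4 := Nat.dvd_sub h2 hpq
      rw [show q + 1 - (q - 1) = 2 by omega] at h4
      have h5 := (Nat.prime_dvd_prime_iff_eq hp Nat.prime_two).1 h4
      rw [h5] at hpq
      have h6 : Odd (q - 1) := Nat.Even.sub_odd (by omega) hq.1 (by decide)
      exact absurd (even_iff_two_dvd.2 hpq) (Nat.not_even_iff_odd.2 h6)
  set N := MulAction.stabilizer G P with hN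
  obtain ⟨Q0⟩ : Nonempty (Sylow p N) := inferInstance
  have hpQ : p ∣ Nat.card Q0 := by
    have h1 : p ∣ Nat.card N := by
      rw [h.cardN P]; exact hpq.mul_left _
    have h2 := Q0.dvd_card_of_dvd_card h1
    exact h2
  obtain ⟨y, hy⟩ := exists_prime_orderOf_dvd_card' (G := Q0) p hpQ
  have key : ∀ T : Sylow 2 G, P ≠ T → ∃ n : G, n • P = P ∧ ((y : N) : G) • (n • T) = n • T := by
    intro T hT
    obtain ⟨⟨x, hx⟩, hfx⟩ := Q0.2.nonempty_fixed_point_of_prime_not_dvd_card (MulAction.orbit N T) (hnd T hT)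
    obtain ⟨n, rfl⟩ := hx
    refine ⟨n, n.2, ?_⟩
    exact congrArg Subtype.val (hfx y)
  have hyord : orderOf ((y : N) : G) = p := by
    rw [Subgroup.orderOf_coe, Subgroup.orderOf_coe]; exact hy
  have hy1 : ((y : N) : G) ≠ 1 := by
    intro h1
    rw [h1, orderOf_one] at hyord
    exact hp.one_lt.ne hyord
  have hyq : ((y : N) : G) ^ (q - 1) = 1 := by
    rw [← orderOf_dvd_iff_pow_eq_one, hyord]; exact hpq
  have hyP : ((y : N) : G) • P = P := (y : N).2
  obtain ⟨n, hn1, hn2⟩ := key R hPR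
  obtain ⟨n', hn1', hn2'⟩ := key R' hPR'
  have hne : P ≠ n • R := by
    intro h1
    rw [← hn1] at h1
    exact hPR (MulAction.injective n h1)
  have hne' : n' • R' ≠ P := by
    intro h1
    rw [← hn1'] at h1
    exact hPR' (MulAction.injective n' h1).symm
  rcases h.fix_two s hne hy1 hyq hyP hn2 _ hn2' with h1 | h1
  · exact absurd h1 hne'
  · refine ⟨n'⁻¹ * n, ?_, ?_⟩
    · rw [mul_smul, hn1, inv_smul_eq_iff, hn1']
    · rw [mul_smul, ← h1, inv_smul_smul]

theorem St.orbit_eq {P R : Sylow 2 G} (hPR : P ≠ R) : MulAction.orbit (MulAction.stabilizer G P) R = {T | T ≠ P} := by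
  ext T
  constructor
  · rintro ⟨n, rfl⟩ h1
    have hn : (n : G) • P = P := n.2
    have h2 : (n : G) • R = (n : G) • P := by rw [hn]; exact h1
    exact hPR (MulAction.injective (n : G) h2).symm
  · intro hT
    obtain ⟨n, hn1, hn2⟩ := h.trans s hPR (Ne.symm hT)
    exact ⟨⟨n, hn1⟩, hn2⟩

theorem St.card_syl {P R : Sylow 2 G} (hPR : P ≠ R) :
    Nat.card (Sylow 2 G) = (MulAction.orbit (MulAction.stabilizer G P) R).ncard + 1 := by
  rw [h.orbit_eq s hPR, ← Set.ncard_univ]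
  have h1 : (Set.univ : Set (Sylow 2 G)) = insert P {T | T ≠ P} := by
    ext T
    simp only [Set.mem_univ, Set.mem_insert_iff, Set.mem_setOf_eq, true_iff]
    exact em _
  have h2 : P ∉ {T : Sylow 2 G | T ≠ P} := fun hh => (show P ≠ P from hh) rfl
  rw [h1, Set.ncard_insert_of_notMem h2 (Set.toFinite _)]

theorem St.pow_dvd {P R : Sylow 2 G} (hPR : P ≠ R) {p k : ℕ} (hp : p.Prime) (hk : p ^ k ∣ q - 1) :
    p ^ k ∣ (MulAction.orbit (MulAction.stabilizer G P) R).ncard - 1 := by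
  classical
  have fp : Fact p.Prime := ⟨hp⟩
  have := Fintype.ofFinite G
  have := Fintype.ofFinite (Sylow 2 G)
  obtain ⟨K, hK⟩ := Sylow.exists_subgroup_card_pow_prime (G := ↥(MulAction.stabilizer G P ⊓ MulAction.stabilizer G R)) p (n := k) (by
    rw [h.card_D s hPR]; exact hk.mul_right _)
  have hfix : ∀ g : K, g ≠ 1 → ∀ T : Sylow 2 G, g • T = T ↔ T = P ∨ T = R := by
    intro g hg T
    constructor
    · intro hT
      have hg1 : ((g : ↥(MulAction.stabilizer G P ⊓ MulAction.stabilizer G R)) : G) ≠ 1 := by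
        intro h1
        exact hg (Subtype.ext (Subtype.ext h1))
      apply h.fix_two s hPR hg1 ?_ g.1.2.1 g.1.2.2 T hT
      have h1 : g ^ (q - 1) = 1 := by
        rw [← orderOf_dvd_iff_pow_eq_one]
        exact (orderOf_dvd_natCard g).trans (by rw [hK]; exact hk)
      exact congrArg (fun x : K => ((x : ↥(MulAction.stabilizer G P ⊓ MulAction.stabilizer G R)) : G)) h1
    · rintro (rfl | rfl)
      · exact g.1.2.1
      · exact g.1.2.2
  have hB := MulAction.sum_card_fixedBy_eq_card_orbits_mul_card_group K (Sylow 2 G)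
  have hs : ∑ a : K, Fintype.card (MulAction.fixedBy (Sylow 2 G) a) = Nat.card (Sylow 2 G) + (p ^ k - 1) * 2 := by
    rw [← Finset.sum_erase_add _ _ (Finset.mem_univ (1 : K))]
    have h1 : Fintype.card (MulAction.fixedBy (Sylow 2 G) (1 : K)) = Nat.card (Sylow 2 G) := by
      rw [← Nat.card_eq_fintype_card, MulAction.fixedBy_one_eq_univ, Nat.card_coe_set_eq, Set.ncard_univ]
    have h2 : ∑ a ∈ Finset.univ.erase (1 : K), Fintype.card (MulAction.fixedBy (Sylow 2 G) a) = (p ^ k - 1) * 2 := by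
      rw [Finset.sum_const_nat (m := 2), Finset.card_erase_of_mem (Finset.mem_univ _), Finset.card_univ, ← Nat.card_eq_fintype_card, hK]
      intro a ha
      have ha' : a ≠ 1 := (Finset.mem_erase.1 ha).1
      rw [← Nat.card_eq_fintype_card, Nat.card_coe_set_eq]
      have h3 : MulAction.fixedBy (Sylow 2 G) a = {P, R} := by
        ext T
        rw [MulAction.mem_fixedBy, hfix a ha']
        rfl
      rw [h3, Set.ncard_pair hPR]
    rw [h1, h2, add_comm]
  rw [hs, ← Nat.card_eq_fintype_card (α := K), hK, h.card_syl s hPR] at hB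
  have hpk : 0 < p ^ k := pow_pos hp.pos k
  have h4 : 0 < (MulAction.orbit (MulAction.stabilizer G P) R).ncard := by
    rw [Set.ncard_pos]; exact ⟨R, MulAction.mem_orbit_self _⟩
  set m := (MulAction.orbit (MulAction.stabilizer G P) R).ncard with hm
  have h5 : m - 1 + p ^ k * 2 = Fintype.card (Quotient (MulAction.orbitRel K (Sylow 2 G))) * p ^ k := by
    rw [← hB]; omega
  have h6 : p ^ k ∣ m - 1 + p ^ k * 2 := by rw [h5]; exact dvd_mul_left _ _
  exact (Nat.dvd_add_left (dvd_mul_right _ _)).1 h6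

/-- the orders -/
theorem St.orders {P R : Sylow 2 G} (hPR : P ≠ R) : Nat.card ↥(M P ⊓ MulAction.stabilizer G R) = q + 1 ∧
    Nat.card (Sylow 2 G) = q ^ 3 + 1 := by
  have h1 := h.card_orbit s hPR
  set m := (MulAction.orbit (MulAction.stabilizer G P) R).ncard with hm
  set d1 := Nat.card ↥(M P ⊓ MulAction.stabilizer G R) with hd1
  have hodd : Odd d1 := by
    by_contra hno
    rw [Nat.not_odd_iff_even, even_iff_two_dvd] at hno
    have f2 : Fact (Nat.Prime 2) := ⟨Nat.prime_two⟩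
    obtain ⟨z, hz⟩ := exists_prime_orderOf_dvd_card' (G := ↥(M P ⊓ MulAction.stabilizer G R)) 2 hno
    obtain ⟨u, hu, hu2, hu1⟩ := h.exists_inv P
    have h2 := h.odd hPR (h.of_comm P (z : G) u hu hu2 hu1 (z.2.1 u hu hu2)).1 z.2.2
    rw [Subgroup.orderOf_coe, hz] at h2
    exact absurd h2 (by decide)
  have hq := h.q_odd
  have hdvd : d1 ∣ q + 1 := by
    have h3 : d1 ∣ q ^ 3 * (q + 1) := ⟨m, by rw [← h1]; ring⟩
    obtain ⟨n, hn, hqn⟩ := h.two
    have h5 : Nat.Coprime d1 (q ^ 3) := by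
      rw [hqn]
      apply Nat.Coprime.pow_right
      apply Nat.Coprime.pow_right
      exact (Nat.coprime_two_left.2 hodd).symm
    exact h5.dvd_of_dvd_mul_left h3
  obtain ⟨e, he⟩ := hdvd
  have hd0 : 0 < d1 := Nat.card_pos
  have hme : m = q ^ 3 * e := by
    apply Nat.eq_of_mul_eq_mul_right hd0
    rw [h1, he]; ring
  have hdv : (q - 1) ∣ m - 1 := by
    rw [Nat.dvd_iff_prime_pow_dvd_dvd]
    intro p k hp hk
    exact h.pow_dvd s hPR hp hk
  have he1 := final_num hq.2 hq.1 he hme hdv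
  rw [he1, mul_one] at he hme
  exact ⟨he.symm, by rw [h.card_syl s hPR, ← hm, hme]⟩

theorem St.card_G : Nat.card G = (q ^ 3 + 1) * (q ^ 3 * (q + 1) * (q - 1)) := by
  obtain ⟨P⟩ : Nonempty (Sylow 2 G) := inferInstance
  obtain ⟨R, hPR⟩ := h.exR P
  have h1 := Subgroup.card_mul_index (MulAction.stabilizer G P)
  have h2 := MulAction.index_stabilizer_of_transitive G P
  rw [h2, h.cardN P, (h.orders s hPR).2] at h1
  rw [← h1, mul_comm]

end

end Cfsg.Agent.Lib.PG
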