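import Mathlib
import Cfsg.Prelude.Def_LieRecognition
import Cfsg.Agent.Lib.PG4

/-! S2212, piece G1 (helper12): the rank one set-up. -/

set_option autoImplicit false
set_option linter.all false

namespace Cfsg.Agent.Lib.PG

open Subgroup

theorem St.eq_one_of_fix {G : Type*} [Group G] [Finite G] {q : ℕ} (h : St G q) {P R : Sylow 2 G} (hPR : P ≠ R) {x : G}
    (hx : x ∈ P) (hxR : x • R = R) : x = 1 := by
  obtain ⟨k, hk⟩ := two_pow_of_mem hx
  exact h.ti P R hPR x hx (mem_of_two hk hxR)

theorem St.rank1 {G : Type*} [Group G] [Finite G] {q : ℕ} (h : St G q) (s : Sw G) {P R : Sylow 2 G} (hPR : P ≠ R) {w : G}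
    (hw : w * w = 1) (hwP : w • P = R) : Cfsg.IsRankOneSetup G (Sylow 2 G) P w (P : Subgroup G) := by
  have f2 : Fact (Nat.Prime 2) := ⟨Nat.prime_two⟩
  have hPle : (P : Subgroup G) ≤ MulAction.stabilizer G P := by
    intro x hx
    exact mem_stab.2 (Subgroup.le_normalizer hx)
  have hcard : Nat.card {T : Sylow 2 G // T ≠ P} = q ^ 3 := by
    have h1 : Nat.card {T : Sylow 2 G // T ≠ P} = ({T | T ≠ P} : Set (Sylow 2 G)).ncard := Nat.card_coe_set_eq _
    have h2 := h.card_syl s hPR
    rw [h.orbit_eq s hPR, (h.orders s hPR).2] at h2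
    rw [h1]
    omega
  have hne : ∀ x : G, x • P = P → x • R ≠ P := by
    intro x hx h1
    have h2 : x • R = x • P := by rw [h1, hx]
    exact hPR (MulAction.injective x h2).symm
  refine
    { two_transitive := ?_
      mul_self := hw
      ne_one := ?_
      not_mem := ?_
      le := hPle
      conj_mem := ?_
      inf_eq_bot := ?_
      sup_eq := ?_
      even_card := ?_
      odd_card := ?_ }
  · rw [MulAction.is_two_pretransitive_iff]
    intro a b c d hab hcd
    obtain ⟨g, hg⟩ := MulAction.exists_smul_eq G a c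
    have h1 : c ≠ g • b := by
      intro h2
      rw [← hg] at h2
      exact hab (MulAction.injective g h2)
    obtain ⟨n, hn1, hn2⟩ := h.trans s h1 hcd
    exact ⟨n * g, by rw [mul_smul, hg, hn1], by rw [mul_smul, hn2]⟩
  · rintro rfl
    rw [one_smul] at hwP
    exact hPR hwP
  · intro h1
    have h2 : w • P = P := h1
    rw [hwP] at h2
    exact hPR h2.symm
  · intro g hg x hx
    have h1 : g • P = P := hg
    have h2 := smul_mem (g := g) hx
    rw [h1] at h2
    exact h2
  · rw [eq_bot_iff]
    rintro x ⟨hx, hxR⟩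
    have h1 : x • (w • P) = w • P := hxR
    rw [hwP] at h1
    exact Subgroup.mem_bot.2 (h.eq_one_of_fix hPR hx h1)
  · apply le_antisymm
    · exact sup_le hPle inf_le_left
    · intro n hn
      have hnP : n • P = P := hn
      let f : P → {T : Sylow 2 G // T ≠ P} := fun x => ⟨(x : G) • R, hne x (hPle x.2)⟩
      have hf : Function.Bijective f := by
        rw [Nat.bijective_iff_injective_and_card]
        refine ⟨?_, ?_⟩
        · intro x y hxy
          have h1 : (x : G) • R = (y : G) • R := congrArg Subtype.val hxy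
          have h2 : ((y : G)⁻¹ * x) • R = R := by rw [mul_smul, h1, inv_smul_smul]
          have h3 : (y : G)⁻¹ * x ∈ P := mul_mem (inv_mem y.2) x.2
          have h4 := h.eq_one_of_fix hPR h3 h2
          exact Subtype.ext (inv_mul_eq_one.1 h4).symm
        · rw [hcard]
          exact h.cardP P
      obtain ⟨x, hx⟩ := hf.2 ⟨n • R, hne n hnP⟩
      have h1 : (x : G) • R = n • R := congrArg Subtype.val hx
      have h2 : n = (x : G) * ((x : G)⁻¹ * n) := by group
      rw [h2]
      refine Subgroup.mul_mem_sup x.2 ⟨?_, ?_⟩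
      · exact Subgroup.mul_mem _ (Subgroup.inv_mem _ (hPle x.2)) hn
      · show ((x : G)⁻¹ * n) • (w • P) = w • P
        rw [hwP, mul_smul, ← h1, inv_smul_smul]
  · have h1 : Nat.card P = q ^ 3 := h.cardP P
    have h2 : Nat.card (P : Subgroup G) = q ^ 3 := h1
    rw [h2]
    exact (h.q_odd.1).pow_of_ne_zero (by norm_num)
  · rw [hwP]
    by_contra hno
    rw [Nat.not_odd_iff_even, even_iff_two_dvd] at hno
    obtain ⟨z, hz⟩ := exists_prime_orderOf_dvd_card' (G := ↥(MulAction.stabilizer G P ⊓ MulAction.stabilizer G R)) 2 hno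
    have h1 : (z : G) • P = P := z.2.1
    have h2 : (z : G) • R = R := z.2.2
    have h3 := h.odd hPR h1 h2
    rw [Subgroup.orderOf_coe, hz] at h3
    exact absurd h3 (by decide)

end Cfsg.Agent.Lib.PG
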