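import Mathlib

/-!
# Characterization of PGU(3,q), q even (S2212): definitions (helper76)
-/

set_option autoImplicit false

namespace Cfsg.Agent.Lib.PG

/-- the facts about the centralizer of an involution of `PGU₃(q)`, `q` even -/
structure CT (C : Type*) [Group C] (q : ℕ) : Prop where
  card : Nat.card C = q ^ 3 * (q + 1)
  comm : ∀ x y : C, x * x = 1 → x * y = y * x
  inv : Nat.card {x : C // x * x = 1} = q
  nrm : ∃ P : Subgroup C, P.Normal ∧ Nat.card P = q ^ 3
  cyc : ∃ A : Subgroup C, IsCyclic A ∧ Nat.card A = q + 1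
  fpf : ∀ a x : C, a ≠ 1 → Odd (orderOf a) → (∃ k : ℕ, x ^ 2 ^ k = 1) → a * x = x * a → x * x = 1

theorem CT.congr {C C' : Type*} [Group C] [Group C'] {q : ℕ} (e : C ≃* C') (h : CT C q) : CT C' q where
  card := by rw [← Nat.card_congr e.toEquiv, h.card]
  comm x y hx := by
    have h1 := h.comm (e.symm x) (e.symm y) (by rw [← map_mul, hx, map_one])
    rw [← map_mul, ← map_mul] at h1
    exact e.symm.injective h1
  inv := by
    rw [← h.inv]
    refine Nat.card_congr (Equiv.subtypeEquiv e.symm.toEquiv fun x => ?_)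
    show x * x = 1 ↔ e.symm x * e.symm x = 1
    rw [← map_mul]
    exact (map_eq_one_iff e.symm e.symm.injective).symm
  nrm := by
    obtain ⟨P, hP, hc⟩ := h.nrm
    refine ⟨P.map e.toMonoidHom, hP.map _ e.surjective, ?_⟩
    rw [← hc]
    exact (Nat.card_congr (P.equivMapOfInjective e.toMonoidHom e.injective).toEquiv).symm
  cyc := by
    obtain ⟨A, hA, hc⟩ := h.cyc
    refine ⟨A.map e.toMonoidHom, ?_, ?_⟩
    · exact isCyclic_of_surjective (A.equivMapOfInjective e.toMonoidHom e.injective) (MulEquiv.surjective _)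
    · rw [← hc]
      exact (Nat.card_congr (A.equivMapOfInjective e.toMonoidHom e.injective).toEquiv).symm
  fpf a x ha ho hk hax := by
    have h1 := h.fpf (e.symm a) (e.symm x) (fun h => ha (by simpa using congrArg e h))
      (by rw [MulEquiv.orderOf_eq]; exact ho) (by
        obtain ⟨k, hk⟩ := hk
        exact ⟨k, by rw [← map_pow, hk, map_one]⟩) (by rw [← map_mul, ← map_mul, hax])
    rw [← map_mul] at h1
    exact (map_eq_one_iff e.symm e.symm.injective).1 h1

end Cfsg.Agent.Lib.PG
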