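import Mathlib
import Cfsg.Agent.Lib.PSUField
import Cfsg.Agent.Lib.SylU3Two
import Cfsg.Agent.Lib.CpQuot
import Cfsg.Agent.Lib.PG0

/-! S2212, piece U2b (helper12): a group of order `(q³+1)q³(q²-1)` inducing inner-diagonal automorphisms on a normal
`PSU₃(q)` with trivial centralizer is `GU₃(q)/Z`. -/

set_option autoImplicit false
set_option linter.all false

open Subgroup Cfsg Matrix
open scoped MatrixGroups

namespace Cfsg.Agent.Lib.PG

open Cfsg.Agent.Lib.PSUAut
open Cfsg.Agent.Lib.ClUnitary Cfsg.Agent.Lib.HermMat Cfsg.Agent.Lib.UnTrans Cfsg.Agent.Lib.UnBridge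

/-- transport of the general unitary group along an isomorphism of fields -/
theorem GU_transport {F F' : Type*} [Field F] [Field F'] (n q : ℕ) (τ : F' ≃+* F) :
    Nonempty (↥(GU n F' q) ≃* ↥(GU n F q)) := by
  let Φ : GL (Fin n) F' ≃* GL (Fin n) F := Units.mapEquiv (τ.mapMatrix (m := Fin n)).toMulEquiv
  have hΦ : ∀ (g : GL (Fin n) F') (x : Fin n → F'), (Φ g).1 *ᵥ (fun i => τ (x i)) = fun i => τ ((g.1 *ᵥ x) i) := by
    intro g x
    ext i
    show ∑ j, τ (g.1 i j) * τ (x j) = τ (∑ j, g.1 i j * x j)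
    rw [map_sum]
    simp only [map_mul]
  have hform : ∀ x y : Fin n → F', hermForm n F q (fun i => τ (x i)) (fun i => τ (y i)) = τ (hermForm n F' q x y) := by
    intro x y
    unfold hermForm
    rw [map_sum]
    simp only [map_mul, map_pow]
  have hmap : (GU n F' q).map Φ.toMonoidHom = GU n F q := by
    ext g
    constructor
    · rintro ⟨g', hg', rfl⟩ u v
      show hermForm n F q ((Φ g').1 *ᵥ u) ((Φ g').1 *ᵥ v) = _
      have hu : u = fun i => τ (τ.symm (u i)) := by ext i; rw [τ.apply_symm_apply]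
      have hv : v = fun i => τ (τ.symm (v i)) := by ext i; rw [τ.apply_symm_apply]
      rw [hu, hv, hΦ, hΦ, hform, hform]
      exact congrArg τ (hg' _ _)
    · intro hg
      refine ⟨Φ.symm g, ?_, Φ.apply_symm_apply g⟩
      intro u v
      apply τ.injective
      rw [← hform, ← hform]
      show hermForm n F q (fun i => τ (((Φ.symm g).1 *ᵥ u) i)) (fun i => τ (((Φ.symm g).1 *ᵥ v) i)) = _
      rw [← hΦ, ← hΦ, Φ.apply_symm_apply]
      exact hg _ _
  exact ⟨(Φ.subgroupMap (GU n F' q)).trans (MulEquiv.subgroupCongr hmap)⟩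

theorem ker_dg {F : Type*} [Field F] [Fintype F] {q n : ℕ} (hn : 3 ≤ n) (hF : Fintype.card F = q ^ 2) :
    (dg : GU n F q →* MulAut (PSU n F q)).ker = Subgroup.center (GU n F q) := by
  ext g
  constructor
  · intro hg
    obtain ⟨u, rfl⟩ := dg_eq_one hF hn hg
    rw [Subgroup.mem_center_iff]
    intro h
    exact (scU_comm hF u h).symm
  · intro hg
    rw [Subgroup.mem_center_iff] at hg
    rw [MonoidHom.mem_ker]
    ext x
    obtain ⟨s, rfl⟩ := QuotientGroup.mk_surjective x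
    rw [dg_mk]
    show (QuotientGroup.mk (cg g s) : PSU n F q) = QuotientGroup.mk s
    congr 1
    apply U_ext
    intro y
    have h1 := hg (toGU s)
    have h2 : g.1.1 * s.1.1 = s.1.1 * g.1.1 := by
      have := congrArg (fun t : GU n F q => t.1.1) h1
      exact this.symm
    rw [cg_coe, h2, Matrix.mul_assoc]
    have h3 : g.1.1 * (g.1⁻¹).1 = 1 := by
      rw [← Units.val_mul, mul_inv_cancel, Units.val_one]
    rw [h3, Matrix.mul_one]

theorem card_range_dg {F : Type*} [Field F] [Fintype F] {q : ℕ} (hF : Fintype.card F = q ^ 2) :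
    Nat.card (dg : GU 3 F q →* MulAut (PSU 3 F q)).range = (q ^ 3 + 1) * q ^ 3 * (q ^ 2 - 1) := by
  have h1 := (dg : GU 3 F q →* MulAut (PSU 3 F q)).ker.card_mul_index
  rw [Subgroup.index_ker] at h1
  have h2 : Nat.card (dg : GU 3 F q →* MulAut (PSU 3 F q)).ker = q + 1 := by
    rw [← card_N1 (F := F) hF]
    symm
    refine Nat.card_congr (Equiv.ofBijective
      (fun u : N1 F q => (⟨scU hF u, dg_scU hF u⟩ : (dg : GU 3 F q →* MulAut (PSU 3 F q)).ker)) ⟨?_, ?_⟩)
    · intro u v h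
      exact scU_inj hF (n := 3) (by norm_num) (congrArg Subtype.val h)
    · rintro ⟨g, hg⟩
      obtain ⟨u, hu⟩ := dg_eq_one hF (le_refl 3) hg
      exact ⟨u, Subtype.ext hu.symm⟩
  have h3 := card_SU_mul (n := 3) hF (by norm_num)
  rw [h2, ← h3, SylU3Two.card_SU3 hF] at h1
  have h4 := Nat.eq_of_mul_eq_mul_left (Nat.succ_pos q) h1
  rw [h4]
  ring

theorem id_of_inndiag {G : Type*} [Group G] [Finite G] {F : Type*} [Field F] [Fintype F] {q n : ℕ} (hqn : q = 2 ^ n)
    (hn : 2 ≤ n) (hF : Fintype.card F = q ^ 2) {L : Subgroup G} (hL : L.Normal) {F' : Type} [Field F'] [Fintype F']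
    (hF' : Fintype.card F' = q ^ 2) (e : L ≃* Cfsg.PSU 3 F' q) (hC : Subgroup.centralizer (L : Set G) = ⊥)
    (hcard : Nat.card G = (q ^ 3 + 1) * q ^ 3 * (q ^ 2 - 1))
    (hI : ∀ g : G, ∃ β : MulAut (Cfsg.PSU 3 F' q), Cfsg.IsInnerDiagonalAutPSU β ∧
      ∀ x : L, e ⟨g * x * g⁻¹, hL.conj_mem _ x.2 g⟩ = β (e x)) :
    Nonempty (G ≃* (↥(Cfsg.GU 3 F q) ⧸ Subgroup.center ↥(Cfsg.GU 3 F q))) := by
  classical
  haveI := hL
  let ψ : G →* MulAut (PSU 3 F' q) := (MulAut.congr e).toMonoidHom.comp (MulAut.conjNormal (H := L))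
  have hψ : ∀ (g : G) (x : L), ψ g (e x) = e ⟨g * x * g⁻¹, hL.conj_mem _ x.2 g⟩ := by
    intro g x
    show e (MulAut.conjNormal g (e.symm (e x))) = _
    rw [e.symm_apply_apply]
    congr 1
  have hinj : Function.Injective ψ := by
    rw [injective_iff_map_eq_one]
    intro g hg
    have h1 : g ∈ Subgroup.centralizer (L : Set G) := by
      rw [Subgroup.mem_centralizer_iff]
      intro x hx
      have h2 := hψ g ⟨x, hx⟩
      rw [hg] at h2
      have h3 := e.injective h2
      have h4 : x = g * x * g⁻¹ := congrArg Subtype.val h3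
      calc x * g = (g * x * g⁻¹) * g := by rw [← h4]
        _ = g * x := by group
    rw [hC] at h1
    exact Subgroup.mem_bot.mp h1
  have hrange : ψ.range ≤ (dg : GU 3 F' q →* MulAut (PSU 3 F' q)).range := by
    rintro _ ⟨g, rfl⟩
    obtain ⟨β, hβ, hx⟩ := hI g
    have h1 : ψ g = β := by
      ext y
      obtain ⟨x, rfl⟩ := e.surjective y
      rw [hψ, hx]
    rw [h1]
    obtain ⟨t, ht⟩ := (isInnerDiagonal_iff β).mp hβ
    exact ⟨t, ht.symm⟩
  haveI : Finite (MulAut (PSU 3 F' q)) := inferInstance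
  have heq : ψ.range = (dg : GU 3 F' q →* MulAut (PSU 3 F' q)).range := by
    apply Subgroup.eq_of_le_of_card_ge hrange
    rw [card_range_dg hF', ← hcard, Nat.card_congr (MonoidHom.ofInjective hinj).toEquiv]
  let e1 : G ≃* (dg : GU 3 F' q →* MulAut (PSU 3 F' q)).range :=
    (MonoidHom.ofInjective hinj).trans (MulEquiv.subgroupCongr heq)
  let e2 : (GU 3 F' q ⧸ (dg : GU 3 F' q →* MulAut (PSU 3 F' q)).ker) ≃* (dg : GU 3 F' q →* MulAut (PSU 3 F' q)).range :=
    QuotientGroup.quotientKerEquivRange _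
  let e3 : (GU 3 F' q ⧸ (dg : GU 3 F' q →* MulAut (PSU 3 F' q)).ker) ≃* (GU 3 F' q ⧸ Subgroup.center (GU 3 F' q)) :=
    QuotientGroup.quotientMulEquivOfEq (ker_dg (le_refl 3) hF')
  obtain ⟨e4⟩ := GU_transport 3 q (FiniteField.ringEquivOfCardEq (K := F') (K' := F) (by rw [hF, hF']))
  exact ⟨((e1.trans e2.symm).trans e3).trans (CpQuot.quotCenter e4)⟩

end Cfsg.Agent.Lib.PG
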