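import Cfsg.Agent.Lib.H88Sp4

/-! The stabilizer of a vector in `Sp(4,F)`, in coordinates, and the centralizer of a transvection in `PSp(4,F)`. -/

set_option autoImplicit false
set_option maxHeartbeats 400000

namespace Cfsg.Agent.Lib.H12Shape

open Matrix
open scoped MatrixGroups
open Cfsg.Agent.Lib.H88Sp4

variable {F : Type*} [Field F]

theorem mul2 (A B : M2 F) (i j : Fin 2) : (A * B) i j = A i 0 * B 0 j + A i 1 * B 1 j := by
  rw [Matrix.mul_apply, Fin.sum_univ_two]

theorem jj_entry (A C : M2 F) (i j : Fin 2) : (A * jj F * Cᵀ) i j = A i 1 * C j 0 - A i 0 * C j 1 := by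
  rw [Matrix.mul_apply, Fin.sum_univ_two, Matrix.mul_apply, Matrix.mul_apply, Fin.sum_univ_two, Fin.sum_univ_two,
    transpose_apply, transpose_apply]
  simp [jj]
  ring

/-- the element of the stabilizer with coordinates `a, (x, y), k` -/
def Y (a x y : F) (k : SL(2, F)) : Sp F :=
  ⟨ph !![1, a; 0, 1] !![x * mt k 1 0 - y * mt k 0 0, x * mt k 1 1 - y * mt k 0 1; 0, 0] !![0, x; 0, y] (mt k), by
    rw [mem_iff]
    have hk := mt_det k
    rw [det_fin_two] at hk
    refine ⟨?_, ?_, ?_⟩
    · simp [det_fin_two]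
    · rw [mt_det]; simp [det_fin_two]
    · ext i j
      rw [Matrix.add_apply, jj_entry, jj_entry, Matrix.zero_apply]
      fin_cases i <;> fin_cases j
      · simp
        linear_combination x * hk
      · simp
        linear_combination y * hk
      · simp
      · simp⟩

theorem Y_val (a x y : F) (k : SL(2, F)) : (Y a x y k : M4 F) =
    ph !![1, a; 0, 1] !![x * mt k 1 0 - y * mt k 0 0, x * mt k 1 1 - y * mt k 0 1; 0, 0] !![0, x; 0, y] (mt k) := rfl

theorem Y_mul (a x y b u v : F) (k l : SL(2, F)) : Y a x y k * Y b u v l =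
    Y (a + b + (x * (mt k 1 0 * u + mt k 1 1 * v) - y * (mt k 0 0 * u + mt k 0 1 * v)))
      (x + (mt k 0 0 * u + mt k 0 1 * v)) (y + (mt k 1 0 * u + mt k 1 1 * v)) (k * l) := by
  apply Subtype.ext
  rw [sp_mul_val, Y_val, Y_val, Y_val, ph_mul, mt_mul]
  have hk := mt_det k
  rw [det_fin_two] at hk
  congr 1
  · ext i j
    rw [Matrix.add_apply, mul2, mul2]
    fin_cases i <;> fin_cases j <;> simp <;> ring
  · ext i j
    rw [Matrix.add_apply, mul2, mul2]
    fin_cases i <;> fin_cases j
    · simp [mul2]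
      linear_combination (v * mt l 0 0 - u * mt l 1 0) * hk
    · simp [mul2]
      linear_combination (v * mt l 0 1 - u * mt l 1 1) * hk
    · simp
    · simp
  · ext i j
    rw [Matrix.add_apply, mul2, mul2]
    fin_cases i <;> fin_cases j <;> simp
  · ext i j
    rw [Matrix.add_apply, mul2, mul2]
    fin_cases i <;> fin_cases j <;> simp

theorem Y_inj {a x y b u v : F} {k l : SL(2, F)} (h : Y a x y k = Y b u v l) : a = b ∧ x = u ∧ y = v ∧ k = l := by
  have h1 := congrArg Subtype.val h
  rw [Y_val, Y_val] at h1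
  obtain ⟨h1, -, h3, h4⟩ := ph_inj h1
  refine ⟨?_, ?_, ?_, mt_inj h4⟩
  · have := congrFun (congrFun h1 0) 1
    simpa using this
  · have := congrFun (congrFun h3 0) 1
    simpa using this
  · have := congrFun (congrFun h3 1) 1
    simpa using this

theorem Y_zero : Y (0 : F) 0 0 1 = 1 := by
  apply Subtype.ext
  rw [Y_val, sp_one_val, ← ph_one, mt_one]
  congr 1
  · ext i j
    fin_cases i <;> fin_cases j <;> simp
  · ext i j
    fin_cases i <;> fin_cases j <;> simp
  · ext i j
    fin_cases i <;> fin_cases j <;> simp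

/-- the transvection -/
def tr (F : Type*) [Field F] : Sp F := Y 1 0 0 1

theorem tr_comm (a x y : F) (k : SL(2, F)) : Y a x y k * tr F = tr F * Y a x y k := by
  unfold tr
  rw [Y_mul, Y_mul, mul_one, one_mul, mt_one]
  congr 1
  · simp; ring
  · simp
  · simp

theorem Y_ne_N1 (h2 : (2 : F) ≠ 0) (a x y : F) (k : SL(2, F)) : Y a x y k ≠ N1 := by
  intro h
  have h1 := congrArg Subtype.val h
  rw [Y_val, N1_val, ← ph_one, ph_neg] at h1
  obtain ⟨h1, -⟩ := ph_inj h1
  have := congrFun (congrFun h1 0) 0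
  simp at this
  apply h2
  linear_combination this

theorem exists_Y_of_comm (g : Sp F) (h : g * tr F = tr F * g) :
    ∃ a x y k, g = Y a x y k ∨ g = N1 * Y a x y k := by
  obtain ⟨A, B, C, D, hg⟩ := ph_surj (g : M4 F)
  have h1 := congrArg Subtype.val h
  rw [sp_mul_val, sp_mul_val, tr, Y_val, hg, ph_mul, ph_mul, mt_one] at h1
  obtain ⟨e1, e2, e3, -⟩ := ph_inj h1
  have a00 := congrFun (congrFun e1 0) 0
  have a01 := congrFun (congrFun e1 0) 1
  have a11 := congrFun (congrFun e1 1) 1
  have b00 := congrFun (congrFun e2 0) 0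
  have b01 := congrFun (congrFun e2 0) 1
  have c01 := congrFun (congrFun e3 0) 1
  have c11 := congrFun (congrFun e3 1) 1
  rw [Matrix.add_apply, Matrix.add_apply, mul2, mul2, mul2, mul2] at a00 a01 a11 b00 b01 c01 c11
  simp at a00 a01 a11 b00 b01 c01 c11
  -- facts
  have hA10 : A 1 0 = 0 := a00
  have hA : A 0 0 = A 1 1 := by linear_combination a01
  have hB10 : B 1 0 = 0 := b00
  have hB11 : B 1 1 = 0 := b01
  have hC00 : C 0 0 = 0 := c01
  have hC10 : C 1 0 = 0 := c11
  have h5 := g.2
  rw [hg, mem_iff, det_fin_two A, det_fin_two B, det_fin_two C] at h5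
  obtain ⟨s1, s2, s3⟩ := h5
  rw [hA10, hB10, hB11, hA] at s1
  rw [hC00, hC10] at s2
  have hD : D.det = 1 := by linear_combination s2
  have s300 := congrFun (congrFun s3 0) 0
  have s301 := congrFun (congrFun s3 0) 1
  rw [Matrix.add_apply, jj_entry, jj_entry, Matrix.zero_apply] at s300 s301
  rw [hC00] at s300
  rw [hC10] at s301
  have hs : (A 1 1 - 1) * (A 1 1 + 1) = 0 := by linear_combination s1
  have hDd := hD
  rw [det_fin_two] at hDd
  rcases mul_eq_zero.1 hs with h0 | h0
  · have h0' : A 1 1 = 1 := sub_eq_zero.1 h0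
    refine ⟨A 0 1, C 0 1, C 1 1, mk' D hD, Or.inl ?_⟩
    apply Subtype.ext
    rw [hg, Y_val, mt_mk']
    congr 1
    · ext i j
      fin_cases i <;> fin_cases j
      · simpa using hA.trans h0'
      · simp
      · simpa using hA10
      · simpa using h0'
    · rw [hA, h0'] at s300 s301
      ext i j
      fin_cases i <;> fin_cases j
      · show B 0 0 = C 0 1 * D 1 0 - C 1 1 * D 0 0
        linear_combination D 1 0 * s300 - D 0 0 * s301 - B 0 0 * hDd
      · show B 0 1 = C 0 1 * D 1 1 - C 1 1 * D 0 1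
        linear_combination D 1 1 * s300 - D 0 1 * s301 - B 0 1 * hDd
      · simpa using hB10
      · simpa using hB11
    · ext i j
      fin_cases i <;> fin_cases j
      · simpa using hC00
      · simp
      · simpa using hC10
      · simp
  · have h0' : A 1 1 = -1 := eq_neg_of_add_eq_zero_left h0
    have hDn : (-D).det = 1 := by
      rw [det_fin_two]
      simp only [Matrix.neg_apply]
      linear_combination hDd
    refine ⟨-A 0 1, -C 0 1, -C 1 1, mk' (-D) hDn, Or.inr ?_⟩
    apply Subtype.ext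
    rw [hg, N1_mul_val, Y_val, mt_mk', ph_neg, neg_neg]
    congr 1
    · ext i j
      fin_cases i <;> fin_cases j
      · simpa using hA.trans h0'
      · simp
      · simpa using hA10
      · simpa using h0'
    · rw [hA, h0'] at s300 s301
      ext i j
      fin_cases i <;> fin_cases j
      · show B 0 0 = -(-C 0 1 * (-D : M2 F) 1 0 - -C 1 1 * (-D : M2 F) 0 0)
        simp only [Matrix.neg_apply]
        linear_combination D 1 0 * s300 - D 0 0 * s301 - B 0 0 * hDd
      · show B 0 1 = -(-C 0 1 * (-D : M2 F) 1 1 - -C 1 1 * (-D : M2 F) 0 1)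
        simp only [Matrix.neg_apply]
        linear_combination D 1 1 * s300 - D 0 1 * s301 - B 0 1 * hDd
      · simpa using hB10
      · simpa using hB11
    · ext i j
      fin_cases i <;> fin_cases j
      · simpa using hC00
      · simp
      · simpa using hC10
      · simp

theorem tr_pow_three (h3 : (3 : F) = 0) : tr F ^ 3 = 1 := by
  have h : tr F ^ 3 = Y 3 0 0 1 := by
    rw [pow_succ, pow_two, tr, Y_mul, Y_mul]
    congr 1
    · simp; norm_num
    · simp
    · simp
    · simp
  rw [h, h3, Y_zero]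

theorem tr_ne_one : tr F ≠ 1 := by
  intro h
  rw [← Y_zero, tr] at h
  exact one_ne_zero (Y_inj h).1

/-- the image of the transvection in `PSp(4,F)` -/
def ptr (F : Type*) [Field F] : Cfsg.PSp 2 F := QuotientGroup.mk' (Subgroup.center (Sp F)) (tr F)

theorem orderOf_ptr (h2 : (2 : F) ≠ 0) (h3 : (3 : F) = 0) : orderOf (ptr F) = 3 := by
  have : Fact (Nat.Prime 3) := ⟨Nat.prime_three⟩
  apply orderOf_eq_prime
  · rw [ptr, ← map_pow, tr_pow_three h3, map_one]
  · intro h
    rw [ptr, ← MonoidHom.mem_ker, QuotientGroup.ker_mk', mem_center_iff] at h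
    rcases h with h | h
    · exact tr_ne_one h
    · exact Y_ne_N1 h2 _ _ _ _ h

theorem psp_part {X : Type*} [Group X] (h2 : (2 : F) ≠ 0) (h3 : (3 : F) = 0) (Φ : X →* Sp F)
    (hinj : Function.Injective Φ) (h1 : ∀ x, ∃ a b c k, Φ x = Y a b c k) (hs : ∀ a b c k, ∃ x, Φ x = Y a b c k) :
    Nonempty (X ≃* Subgroup.centralizer ({ptr F} : Set (Cfsg.PSp 2 F))) := by
  let q := QuotientGroup.mk' (Subgroup.center (Sp F))
  have hq : ∀ g, q g = 1 ↔ g = 1 ∨ g = N1 := by
    intro g
    rw [← MonoidHom.mem_ker, QuotientGroup.ker_mk', mem_center_iff]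
  have hmem : ∀ x, (q.comp Φ) x ∈ Subgroup.centralizer ({ptr F} : Set (Cfsg.PSp 2 F)) := by
    intro x
    rw [Subgroup.mem_centralizer_singleton_iff]
    obtain ⟨a, b, c, k, hx⟩ := h1 x
    show q (Φ x) * q (tr F) = q (tr F) * q (Φ x)
    rw [← map_mul, ← map_mul, hx, tr_comm]
  refine ⟨MulEquiv.ofBijective ((q.comp Φ).codRestrict _ hmem) ⟨?_, ?_⟩⟩
  · rw [injective_iff_map_eq_one]
    intro x hx
    have hx' : q (Φ x) = 1 := congrArg Subtype.val hx
    rcases (hq _).1 hx' with h | h
    · exact (injective_iff_map_eq_one Φ).1 hinj x h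
    · obtain ⟨a, b, c, k, hx2⟩ := h1 x
      rw [hx2] at h
      exact absurd h (Y_ne_N1 h2 _ _ _ _)
  · rintro ⟨c, hc⟩
    obtain ⟨g, rfl⟩ := QuotientGroup.mk'_surjective (Subgroup.center (Sp F)) c
    rw [Subgroup.mem_centralizer_singleton_iff] at hc
    have hc' : q (g * tr F) = q (tr F * g) := by rw [map_mul, map_mul]; exact hc
    have h4 : q ((g * tr F)⁻¹ * (tr F * g)) = 1 := by rw [map_mul, map_inv, hc', inv_mul_cancel]
    have h5 : g * tr F = tr F * g := by
      rcases (hq _).1 h4 with h | h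
      · exact inv_mul_eq_one.1 h
      · exfalso
        have h6 : g⁻¹ * tr F * g = tr F * N1 := by
          have : tr F * g = g * tr F * N1 := by rw [← h]; group
          rw [mul_assoc, this]
          group
        have h7 : (g⁻¹ * tr F * g) ^ 3 = 1 := by
          have : (g⁻¹ * tr F * g) ^ 3 = g⁻¹ * tr F ^ 3 * g := by
            simp only [pow_succ, pow_zero, one_mul]; group
          rw [this, tr_pow_three h3, mul_one, inv_mul_cancel]
        rw [h6, (show Commute (tr F) N1 from (N1_comm _).symm).mul_pow, tr_pow_three h3, one_mul, pow_succ, pow_two,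
          N1_sq, one_mul] at h7
        exact N1_ne h2 h7
    obtain ⟨a, b, c, k, h6⟩ := exists_Y_of_comm g h5
    obtain ⟨x, hx⟩ := hs a b c k
    refine ⟨x, Subtype.ext ?_⟩
    show q (Φ x) = q g
    rw [hx]
    rcases h6 with h6 | h6
    · rw [h6]
    · rw [h6, map_mul, (hq N1).2 (Or.inr rfl), one_mul]

theorem card_center_sp (h2 : (2 : F) ≠ 0) : Nat.card (Subgroup.center (Sp F)) = 2 := by
  have h : (Subgroup.center (Sp F) : Set (Sp F)) = {1, N1} := by
    ext g
    rw [SetLike.mem_coe, mem_center_iff]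
    rfl
  have h' : Nat.card (Subgroup.center (Sp F)) = Set.ncard (Subgroup.center (Sp F) : Set (Sp F)) :=
    (Nat.card_coe_set_eq _)
  rw [h', h, Set.ncard_pair (N1_ne h2).symm]

theorem card_psp (h2 : (2 : F) ≠ 0) [Fintype F] (hF : Fintype.card F = 3) : Nat.card (Cfsg.PSp 2 F) = 25920 := by
  have h := Subgroup.card_eq_card_quotient_mul_card_subgroup (Subgroup.center (Sp F))
  rw [card_center_sp h2, ClSympOrd.card_symplectic, hF] at h
  have e : 3 ^ (2 ^ 2) * ∏ i ∈ Finset.range 2, (3 ^ (2 * (i + 1)) - 1) = 51840 := by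
    simp [Finset.prod_range_succ]
  rw [e] at h
  have h' : Nat.card (Cfsg.PSp 2 F) * 2 = 51840 := h.symm
  omega

end Cfsg.Agent.Lib.H12Shape
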