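import Cfsg.Agent.Lib.H12Shape1
import Cfsg.Agent.Lib.Gaschutz

/-! Coordinates in an extraspecial group of order 27 and exponent 3. -/

set_option autoImplicit false
set_option maxHeartbeats 400000

namespace Cfsg.Agent.Lib.H12Shape

variable {G : Type*} [Group G]

/-- power by a residue mod 3 -/
def pw (g : G) (a : ZMod 3) : G := g ^ a.val

theorem pw_add {g : G} (h : g ^ 3 = 1) (a b : ZMod 3) : pw g (a + b) = pw g a * pw g b := by
  unfold pw
  rw [ZMod.val_add, ← pow_add, pow_mod_eq_of_pow_eq_one h]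
where
  pow_mod_eq_of_pow_eq_one {g : G} (h : g ^ 3 = 1) {n : ℕ} : g ^ (n % 3) = g ^ n := by
    conv_rhs => rw [← Nat.div_add_mod n 3, pow_add, pow_mul, h, one_pow, one_mul]

theorem pw_zero (g : G) : pw g 0 = 1 := by
  unfold pw; rw [ZMod.val_zero, pow_zero]

theorem pw_one (g : G) : pw g 1 = g := by
  unfold pw
  exact pow_one g

theorem pw_neg {g : G} (h : g ^ 3 = 1) (a : ZMod 3) : pw g (-a) = (pw g a)⁻¹ := by
  apply eq_inv_of_mul_eq_one_left
  rw [← pw_add h, neg_add_cancel, pw_zero]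

theorem pw_conj (x g : G) (a : ZMod 3) : x * pw g a * x⁻¹ = pw (x * g * x⁻¹) a := by
  unfold pw
  rw [conj_pow]

theorem pw_one_left (a : ZMod 3) : pw (1 : G) a = 1 := one_pow _

theorem pw_eq_one {g : G} (h : g ^ 3 = 1) (hne : g ≠ 1) {a : ZMod 3} (ha : pw g a = 1) : a = 0 := by
  unfold pw at ha
  have h3 : orderOf g = 3 := orderOf_eq_prime h hne
  have h4 := orderOf_dvd_of_pow_eq_one ha
  rw [h3] at h4
  rw [← ZMod.val_eq_zero]
  exact Nat.eq_zero_of_dvd_of_lt h4 (ZMod.val_lt a)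

theorem pw_comm {g h : G} (hgh : g * h = h * g) (a b : ZMod 3) : pw g a * pw h b = pw h b * pw g a := by
  unfold pw
  exact (show Commute g h from hgh).pow_pow _ _

/-- a Heisenberg pair -/
structure HD (G : Type*) [Group G] where
  /-- first -/
  r : G
  /-- second -/
  s : G
  /-- central -/
  z : G
  r3 : r ^ 3 = 1
  s3 : s ^ 3 = 1
  z3 : z ^ 3 = 1
  zr : z * r = r * z
  zs : z * s = s * z
  rel : s * r = z * (r * s)
  ne : z ≠ 1

namespace HD

variable (D : HD G)

theorem s_conj_r : D.s * D.r * D.s⁻¹ = D.r * D.z := by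
  rw [D.rel, ← mul_assoc, mul_assoc, mul_inv_cancel, mul_one, D.zr]

theorem pwz_r (a x : ZMod 3) : pw D.z a * pw D.r x = pw D.r x * pw D.z a := pw_comm D.zr a x

theorem pwz_s (a x : ZMod 3) : pw D.z a * pw D.s x = pw D.s x * pw D.z a := pw_comm D.zs a x

theorem npow_rel (m n : ℕ) : D.s ^ m * D.r ^ n = D.z ^ (m * n) * (D.r ^ n * D.s ^ m) := by
  have zr : Commute D.z D.r := D.zr
  have zs : Commute D.z D.s := D.zs
  have h1 : ∀ n : ℕ, D.s * D.r ^ n = D.z ^ n * (D.r ^ n * D.s) := by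
    intro n
    induction n with
    | zero => simp
    | succ n ih =>
      rw [pow_succ D.r, ← mul_assoc, ih, mul_assoc, mul_assoc, D.rel, pow_succ D.z]
      have h2 : D.r ^ n * (D.z * (D.r * D.s)) = D.z * (D.r ^ n * (D.r * D.s)) := by
        rw [← mul_assoc, ← (zr.pow_right n).eq, mul_assoc]
      rw [h2]
      simp only [mul_assoc]
  induction m with
  | zero => simp
  | succ m ih =>
    rw [pow_succ D.s, mul_assoc, h1, ← mul_assoc, ← ((zs.pow_pow n m).eq), mul_assoc, ← mul_assoc (D.s ^ m), ih,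
      Nat.succ_mul, pow_add]
    have h3 : D.z ^ n * (D.z ^ (m * n) * (D.r ^ n * D.s ^ m) * D.s) =
      D.z ^ (m * n) * D.z ^ n * (D.r ^ n * (D.s ^ m * D.s)) := by
      rw [← mul_assoc, ← mul_assoc, ← pow_add, ← pow_add, Nat.add_comm (m * n) n]
      simp only [mul_assoc]
    rw [h3]

theorem pw_rel (y x : ZMod 3) : pw D.s y * pw D.r x = pw D.z (y * x) * (pw D.r x * pw D.s y) := by
  unfold pw
  rw [npow_rel]
  congr 1
  rw [ZMod.val_mul]
  exact (pw_add.pow_mod_eq_of_pow_eq_one D.z3).symm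

/-- the element with coordinates `(a, (x, y))` -/
def P (a x y : ZMod 3) : G := pw D.z (a - x * y) * (pw D.r x * pw D.s y)

theorem P_mul (a x y b u v : ZMod 3) : D.P a x y * D.P b u v = D.P (a + b + (x * v - y * u)) (x + u) (y + v) := by
  unfold P
  have h1 : pw D.z (a - x * y) * (pw D.r x * pw D.s y) * (pw D.z (b - u * v) * (pw D.r u * pw D.s v)) =
      pw D.z (a - x * y) * pw D.z (b - u * v) * (pw D.r x * (pw D.s y * pw D.r u) * pw D.s v) := by
    have e1 : pw D.r x * pw D.s y * pw D.z (b - u * v) = pw D.z (b - u * v) * (pw D.r x * pw D.s y) := by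
      rw [mul_assoc, ← pwz_s, ← mul_assoc, ← pwz_r, mul_assoc]
    calc _ = pw D.z (a - x * y) * (pw D.r x * pw D.s y * pw D.z (b - u * v)) * (pw D.r u * pw D.s v) := by
          simp only [mul_assoc]
      _ = _ := by rw [e1]; simp only [mul_assoc]
  rw [h1, pw_rel]
  have h2 : pw D.r x * (pw D.z (y * u) * (pw D.r u * pw D.s y)) * pw D.s v =
      pw D.z (y * u) * ((pw D.r x * pw D.r u) * (pw D.s y * pw D.s v)) := by
    rw [← mul_assoc (pw D.r x), ← pwz_r]
    simp only [mul_assoc]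
  rw [h2, ← pw_add D.r3, ← pw_add D.s3, ← pw_add D.z3, ← mul_assoc, ← pw_add D.z3]
  congr 2
  have h3 : (3 : ZMod 3) = 0 := by decide
  linear_combination (y * u) * h3

theorem P_zero : D.P 0 0 0 = 1 := by
  unfold P
  simp [pw_zero]

theorem P_r : D.P 0 1 0 = D.r := by
  unfold P
  simp [pw_zero, pw_one]

theorem P_s : D.P 0 0 1 = D.s := by
  unfold P
  simp [pw_zero, pw_one]

theorem P_z (a : ZMod 3) : D.P a 0 0 = pw D.z a := by
  unfold P
  simp [pw_zero]

theorem P_inv (a x y : ZMod 3) : (D.P a x y)⁻¹ = D.P (-a) (-x) (-y) := by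
  rw [inv_eq_iff_mul_eq_one, P_mul]
  convert D.P_zero using 2 <;> ring

theorem P_pow_three (a x y : ZMod 3) : D.P a x y ^ 3 = 1 := by
  rw [pow_succ, pow_two, P_mul, P_mul]
  have h3 : (3 : ZMod 3) = 0 := by decide
  convert D.P_zero using 2
  · linear_combination a * h3
  · linear_combination x * h3
  · linear_combination y * h3

theorem P_conj (a x y b u v : ZMod 3) : D.P a x y * D.P b u v * (D.P a x y)⁻¹ = D.P (b - (x * v - y * u)) u v := by
  rw [P_inv, P_mul, P_mul]
  have h3 : (3 : ZMod 3) = 0 := by decide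
  congr 1
  · linear_combination (x * v - y * u) * h3
  · ring
  · ring

theorem P_eq_one {a x y : ZMod 3} (h : D.P a x y = 1) : a = 0 ∧ x = 0 ∧ y = 0 := by
  have key : ∀ u v, x * v - y * u = 0 := by
    intro u v
    have h1 := D.P_conj a x y 0 u v
    rw [h, one_mul, inv_one, mul_one] at h1
    -- P 0 u v = P (-(…)) u v
    have h2 : D.P (0 - (x * v - y * u)) u v * (D.P 0 u v)⁻¹ = 1 := by rw [← h1, mul_inv_cancel]
    rw [P_inv, P_mul] at h2
    have h3 : D.P (-(x * v - y * u)) 0 0 = 1 := by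
      rw [← h2]
      congr 1 <;> ring
    rw [P_z] at h3
    have := pw_eq_one D.z3 D.ne h3
    linear_combination -this
  have hx : x = 0 := by have := key 0 1; linear_combination this
  have hy : y = 0 := by have := key 1 0; linear_combination -this
  refine ⟨?_, hx, hy⟩
  rw [hx, hy, P_z] at h
  exact pw_eq_one D.z3 D.ne h

theorem P_inj {a x y b u v : ZMod 3} (h : D.P a x y = D.P b u v) : a = b ∧ x = u ∧ y = v := by
  have h1 : D.P a x y * (D.P b u v)⁻¹ = 1 := by rw [h, mul_inv_cancel]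
  rw [P_inv, P_mul] at h1
  obtain ⟨h2, h3, h4⟩ := D.P_eq_one h1
  have hx : x = u := by linear_combination h3
  have hy : y = v := by linear_combination h4
  refine ⟨?_, hx, hy⟩
  rw [hx, hy] at h2
  linear_combination h2

end HD

end Cfsg.Agent.Lib.H12Shape
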