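import Cfsg.Agent.Lib.H12Shape2

/-! Groups of shape `3^{1+2}.SL(2,3)`. -/

set_option autoImplicit false
set_option maxHeartbeats 400000
set_option maxRecDepth 10000

namespace Cfsg.Agent.Lib.H12Shape

open Matrix
open scoped MatrixGroups

/-- upper unipotent -/
def U3 (a : ZMod 3) : SL(2, ZMod 3) := ⟨!![1, a; 0, 1], by simp [Matrix.det_fin_two]⟩
/-- lower unipotent -/
def L3 (a : ZMod 3) : SL(2, ZMod 3) := ⟨!![1, 0; a, 1], by simp [Matrix.det_fin_two]⟩

theorem gen_SL : ∀ g : SL(2, ZMod 3), ∃ a b c d : ZMod 3, g = U3 a * L3 b * U3 c * L3 d := by decide +kernel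
theorem U3_cube : ∀ a, U3 a ^ 3 = 1 := by decide +kernel
theorem L3_cube : ∀ a, L3 a ^ 3 = 1 := by decide +kernel
theorem fact_normal : ∀ g : SL(2, ZMod 3), g ≠ 1 → ∃ h : SL(2, ZMod 3),
    g = -1 ∨ g * g = -1 ∨ g * g * g = -1 ∨ (h * g * h⁻¹ * g⁻¹) * (h * g * h⁻¹ * g⁻¹) = -1 := by decide +kernel
theorem card_SL : Nat.card (SL(2, ZMod 3)) = 24 := by
  rw [Nat.card_eq_fintype_card]
  decide +kernel
theorem neg_one_ne : (-1 : SL(2, ZMod 3)) ≠ 1 := by decide +kernel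
theorem neg_one_cube : (-1 : SL(2, ZMod 3)) ^ 3 = -1 := by decide +kernel
theorem neg_one_sq : (-1 : SL(2, ZMod 3)) * -1 = 1 := by decide +kernel
theorem neg_one_comm (g : SL(2, ZMod 3)) : g * -1 = -1 * g := by
  rw [mul_neg, neg_mul, mul_one, one_mul]

theorem subgroup_top (S : Subgroup (SL(2, ZMod 3))) (h : ∀ g, g ^ 3 = 1 → g ∈ S) : S = ⊤ := by
  rw [eq_top_iff]
  intro g _
  obtain ⟨a, b, c, d, rfl⟩ := gen_SL g
  exact S.mul_mem (S.mul_mem (S.mul_mem (h _ (U3_cube a)) (h _ (L3_cube b))) (h _ (U3_cube c))) (h _ (L3_cube d))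

theorem fact_line : ∀ x y u v : ZMod 3, ¬ (x = 0 ∧ y = 0) → x * v - y * u = 0 → ∃ l, u = l * x ∧ v = l * y := by
  decide +kernel

theorem two_mul_zero : ∀ a : ZMod 3, a + a = 0 → a = 0 := by decide +kernel

variable {X : Type*} [Group X]

theorem eq_one_of_cube_sq {g : X} (h2 : g * g = 1) (h3 : g ^ 3 = 1) : g = 1 := by
  rw [pow_succ, pow_two, h2, one_mul] at h3
  exact h3

theorem pw_pw {g : X} (h : g ^ 3 = 1) (a b : ZMod 3) : pw (pw g a) b = pw g (a * b) := by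
  unfold pw
  rw [← pow_mul, ZMod.val_mul]
  exact (pw_add.pow_mod_eq_of_pow_eq_one h).symm

/-- the Heisenberg pair of two noncommuting elements -/
theorem mkD (R : Subgroup X) (hcard : Nat.card R = 27) (hexp : ∀ g ∈ R, g ^ 3 = 1)
    (hcom : commutator R ≤ Subgroup.center R) {r s : X} (hr : r ∈ R) (hs : s ∈ R) (hrs : r * s ≠ s * r) :
    ∃ D : HD X, D.r = r ∧ D.s = s ∧ ∀ g, g ∈ R ↔ ∃ a x y, g = D.P a x y := by
  have hz : s * r * s⁻¹ * r⁻¹ ∈ R := R.mul_mem (R.mul_mem (R.mul_mem hs hr) (R.inv_mem hs)) (R.inv_mem hr)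
  have hzc : ∀ g ∈ R, (s * r * s⁻¹ * r⁻¹) * g = g * (s * r * s⁻¹ * r⁻¹) := by
    intro g hg
    have h1 := hcom (Subgroup.commutator_mem_commutator (Subgroup.mem_top (⟨s, hs⟩ : R))
      (Subgroup.mem_top (⟨r, hr⟩ : R)))
    rw [Subgroup.mem_center_iff] at h1
    have := congrArg Subtype.val (h1 ⟨g, hg⟩)
    exact this.symm
  let D : HD X :=
    { r := r
      s := s
      z := s * r * s⁻¹ * r⁻¹
      r3 := hexp r hr
      s3 := hexp s hs
      z3 := hexp _ hz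
      zr := hzc r hr
      zs := hzc s hs
      rel := by group
      ne := by
        intro h
        apply hrs
        have : s * r = s * r * s⁻¹ * r⁻¹ * (r * s) := by group
        rw [this, h, one_mul] }
  refine ⟨D, rfl, rfl, ?_⟩
  have hmem : ∀ a x y, D.P a x y ∈ R := by
    intro a x y
    unfold HD.P pw
    exact R.mul_mem (R.pow_mem hz _) (R.mul_mem (R.pow_mem hr _) (R.pow_mem hs _))
  have : Finite R := Nat.finite_of_card_ne_zero (by rw [hcard]; decide)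
  let f : (ZMod 3 × ZMod 3 × ZMod 3) → R := fun p => ⟨D.P p.1 p.2.1 p.2.2, hmem _ _ _⟩
  have hf : Function.Bijective f := by
    rw [Nat.bijective_iff_injective_and_card]
    constructor
    · rintro ⟨a, x, y⟩ ⟨b, u, v⟩ h
      obtain ⟨h1, h2, h3⟩ := D.P_inj (congrArg Subtype.val h)
      simp only at h1 h2 h3
      rw [h1, h2, h3]
    · rw [hcard, Nat.card_prod, Nat.card_prod, Nat.card_zmod]
  intro g
  constructor
  · intro hg
    obtain ⟨⟨a, x, y⟩, h⟩ := hf.2 ⟨g, hg⟩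
    exact ⟨a, x, y, (congrArg Subtype.val h).symm⟩
  · rintro ⟨a, x, y, rfl⟩
    exact hmem a x y

theorem HD.P_comm_iff (D : HD X) (a x y b u v : ZMod 3) :
    D.P a x y * D.P b u v = D.P b u v * D.P a x y ↔ x * v - y * u = 0 := by
  have h3 : (3 : ZMod 3) = 0 := by decide
  constructor
  · intro h
    rw [HD.P_mul, HD.P_mul] at h
    have := (D.P_inj h).1
    linear_combination -this + (x * v - y * u) * h3
  · intro h
    rw [HD.P_mul, HD.P_mul]
    congr 1
    · linear_combination 2 * h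
    · ring
    · ring

theorem HD.z_eq (D : HD X) : D.z = D.P 1 0 0 := by
  rw [HD.P_z, pw_one]

variable (R : Subgroup X) [hRn : R.Normal] (D : HD X) (hR : ∀ g, g ∈ R ↔ ∃ a x y, g = D.P a x y)
  (π : X →* SL(2, ZMod 3)) (hπ : Function.Surjective π) (hker : ∀ x, π x = 1 ↔ x ∈ R)

include hR in
theorem conj_z (x : X) : ∃ a, x * D.z * x⁻¹ = pw D.z a := by
  have hz : D.z ∈ R := (hR _).2 ⟨1, 0, 0, D.z_eq⟩
  obtain ⟨a, u, v, h⟩ := (hR _).1 (hRn.conj_mem _ hz x)
  have hcomm : ∀ g ∈ R, (x * D.z * x⁻¹) * g = g * (x * D.z * x⁻¹) := by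
    intro g hg
    have h1 : x⁻¹ * g * x ∈ R := by
      have := hRn.conj_mem _ hg x⁻¹
      rwa [inv_inv] at this
    obtain ⟨b, u', v', h2⟩ := (hR _).1 h1
    have h3 : D.z * (x⁻¹ * g * x) = (x⁻¹ * g * x) * D.z := by
      rw [h2, D.z_eq, HD.P_comm_iff]
      ring
    calc (x * D.z * x⁻¹) * g = x * (D.z * (x⁻¹ * g * x)) * x⁻¹ := by group
      _ = _ := by rw [h3]; group
  rw [h] at hcomm
  have h1 := hcomm (D.P 0 1 0) ((hR _).2 ⟨_, _, _, rfl⟩)
  have h2 := hcomm (D.P 0 0 1) ((hR _).2 ⟨_, _, _, rfl⟩)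
  rw [HD.P_comm_iff] at h1 h2
  have hv : v = 0 := by linear_combination -h1
  have hu : u = 0 := by linear_combination h2
  refine ⟨a, ?_⟩
  rw [h, hu, hv, HD.P_z]

include hR hπ hker in
theorem z_central (x : X) : x * D.z = D.z * x := by
  let N := Subgroup.centralizer ({D.z} : Set X)
  have hRN : R ≤ N := by
    intro g hg
    rw [Subgroup.mem_centralizer_singleton_iff]
    obtain ⟨a, u, v, rfl⟩ := (hR _).1 hg
    rw [D.z_eq, HD.P_comm_iff]
    ring
  have hN : ∀ x, π x ^ 3 = 1 → x ∈ N := by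
    intro x hx
    have h1 : x ^ 3 ∈ N := hRN ((hker _).1 (by rw [map_pow, hx]))
    rw [Subgroup.mem_centralizer_singleton_iff] at h1 ⊢
    obtain ⟨a, ha⟩ := conj_z R D hR x
    have h2 : x ^ 3 * D.z * (x ^ 3)⁻¹ = pw D.z (a * a * a) := by
      have : x ^ 3 * D.z * (x ^ 3)⁻¹ = x * (x * (x * D.z * x⁻¹) * x⁻¹) * x⁻¹ := by
        simp only [pow_succ, pow_zero, one_mul]; group
      rw [this, ha, pw_conj, ha, pw_conj, pw_conj, ha, pw_pw D.z3, pw_pw D.z3]
    have h3 : ∀ a : ZMod 3, a * a * a = a := by decide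
    rw [h3, ← ha, h1, mul_inv_cancel_right] at h2
    rw [eq_mul_inv_iff_mul_eq] at h2
    exact h2.symm
  have htop : N.map π = ⊤ := by
    apply subgroup_top
    intro g hg
    obtain ⟨y, rfl⟩ := hπ g
    exact Subgroup.mem_map_of_mem _ (hN y hg)
  have h1 : π x ∈ N.map π := by rw [htop]; exact Subgroup.mem_top _
  obtain ⟨y, hy, hyx⟩ := h1
  have h2 : y⁻¹ * x ∈ R := (hker _).1 (by rw [map_mul, map_inv, hyx, inv_mul_cancel])
  have h3 : x ∈ N := by
    have := N.mul_mem hy (hRN h2)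
    rwa [mul_inv_cancel_left] at this
  rwa [Subgroup.mem_centralizer_singleton_iff] at h3

omit hRn in
include hπ hker in
theorem exists_t (hexp : ∀ g ∈ R, g ^ 3 = 1) : ∃ t : X, t * t = 1 ∧ π t = -1 := by
  obtain ⟨x, hx⟩ := hπ (-1)
  have h1 : x * x ∈ R := (hker _).1 (by rw [map_mul, hx, neg_one_sq])
  refine ⟨x ^ 3, ?_, by rw [map_pow, hx, neg_one_cube]⟩
  have h2 := hexp _ h1
  rw [← pow_two, ← pow_mul] at h2
  rw [← pow_add]
  exact h2

omit hRn in
include hker in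
theorem frattini (hexp : ∀ g ∈ R, g ^ 3 = 1) {t : X} (ht : t * t = 1) (hpt : π t = -1) (x : X) :
    ∃ d ∈ R, ∃ c, c * t = t * c ∧ x = d * c := by
  obtain ⟨u, hu⟩ : ∃ u, u = x * t * x⁻¹ := ⟨_, rfl⟩
  have hd : t * u ∈ R := by
    apply (hker _).1
    rw [hu, map_mul, map_mul, map_mul, map_inv, hpt, neg_one_comm, mul_inv_cancel_right, neg_one_sq]
  have huu : u * u = 1 := by
    rw [hu]
    calc x * t * x⁻¹ * (x * t * x⁻¹) = x * (t * t) * x⁻¹ := by group
      _ = 1 := by rw [ht, mul_one, mul_inv_cancel]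
  have h3 := hexp _ hd
  have e3 : u⁻¹ = u := inv_eq_of_mul_eq_one_left huu
  have e4 : t⁻¹ = t := inv_eq_of_mul_eq_one_left ht
  have hdi : (t * u)⁻¹ = u * t := by rw [_root_.mul_inv_rev, e3, e4]
  have e2 : (t * u) * (t * u) = u * t := by
    rw [← hdi]
    apply eq_inv_of_mul_eq_one_left
    rw [← h3, pow_succ, pow_two]
  refine ⟨t * u, hd, (t * u)⁻¹ * x, ?_, by group⟩
  have hxt : x * t = u * x := by rw [hu]; group
  rw [hdi, mul_assoc, mul_assoc, hxt]
  -- u t u x = t u t x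
  have h5 : u * t * u = t * (u * t) := by
    have : t * u * (t * u) * u = u * t * u := by rw [e2]
    rw [← this, mul_assoc (t * u) (t * u) u, mul_assoc t u u, huu, mul_one, mul_assoc]
  calc u * (t * (u * x)) = (u * t * u) * x := by simp only [mul_assoc]
    _ = _ := by rw [h5]; simp only [mul_assoc]

end Cfsg.Agent.Lib.H12Shape
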