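import Cfsg.Agent.Lib.H12Shape3

/-! Groups of shape `3^{1+2}.SL(2,3)`: the central involution acts by inversion. -/

set_option autoImplicit false
set_option maxHeartbeats 400000
set_option maxRecDepth 10000

namespace Cfsg.Agent.Lib.H12Shape

open Matrix
open scoped MatrixGroups

variable {X : Type*} [Group X]

theorem three_zero : (3 : ZMod 3) = 0 := by decide

theorem HD.pw_P (D : HD X) (a x y l : ZMod 3) : pw (D.P a x y) l = D.P (l * a) (l * x) (l * y) := by
  have h3 := three_zero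
  have h : ∀ l : ZMod 3, l = 0 ∨ l = 1 ∨ l = 1 + 1 := by decide
  rcases h l with rfl | rfl | rfl
  · rw [pw_zero, zero_mul, zero_mul, zero_mul, HD.P_zero]
  · rw [pw_one, one_mul, one_mul, one_mul]
  · rw [pw_add (D.P_pow_three a x y), pw_one, HD.P_mul]
    congr 1 <;> ring

theorem pw_inv_left {g : X} (h : g ^ 3 = 1) (x : ZMod 3) : pw g⁻¹ x = pw g (-x) := by
  rw [pw_neg h]
  unfold pw
  rw [inv_pow]

variable (R : Subgroup X) [hRn : R.Normal] (D : HD X) (hR : ∀ g, g ∈ R ↔ ∃ a x y, g = D.P a x y)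

include hR in
theorem tau_fix {t : X} (ht : t * t = 1) (hz : t * D.z = D.z * t)
    (hns : ¬ ∀ g ∈ R, t * g = g * t) {a x y : ZMod 3}
    (hg : t * D.P a x y = D.P a x y * t) : x = 0 ∧ y = 0 := by
  have hti : t⁻¹ = t := inv_eq_of_mul_eq_one_left ht
  have h3 := three_zero
  by_contra hxy
  apply hns
  intro h hh
  obtain ⟨b, u, v, hb⟩ := (hR _).1 hh
  have h1 : t * h * t ∈ R := by
    have := hRn.conj_mem _ hh t
    rwa [hti] at this
  obtain ⟨b', u', v', hb'⟩ := (hR _).1 h1
  have htz : ∀ c, t * pw D.z c = pw D.z c * t := by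
    intro c
    have := pw_comm (g := t) (h := D.z) hz 1 c
    rwa [pw_one] at this
  -- conjugate by g
  have e1 : D.P a x y * h * (D.P a x y)⁻¹ = pw D.z (-(x * v - y * u)) * h := by
    rw [hb, HD.P_conj, ← HD.P_z, HD.P_mul]
    congr 1 <;> ring
  have e2 : D.P a x y * (t * h * t) * (D.P a x y)⁻¹ = pw D.z (-(x * v - y * u)) * (t * h * t) := by
    have h4 : D.P a x y * t = t * D.P a x y := hg.symm
    have h5 : t * (D.P a x y)⁻¹ = (D.P a x y)⁻¹ * t := by
      rw [mul_inv_eq_iff_eq_mul.2]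
      · rw [mul_assoc, ← h4, ← mul_assoc, inv_mul_cancel, one_mul]
    calc D.P a x y * (t * h * t) * (D.P a x y)⁻¹ = (D.P a x y * t) * h * (t * (D.P a x y)⁻¹) := by
          simp only [mul_assoc]
      _ = t * (D.P a x y * h * (D.P a x y)⁻¹) * t := by rw [h4, h5]; simp only [mul_assoc]
      _ = _ := by
        rw [e1, ← mul_assoc, htz]
        simp only [mul_assoc]
  rw [hb', HD.P_conj, ← HD.P_z, HD.P_mul] at e2
  have e3 := (D.P_inj e2).1
  have e4 : x * (v' - v) - y * (u' - u) = 0 := by linear_combination -e3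
  obtain ⟨l, hl1, hl2⟩ := fact_line x y (u' - u) (v' - v) hxy e4
  have e5 : h⁻¹ * (t * h * t) = D.P (-b + b' + (-u * v' - -v * u')) (l * x) (l * y) := by
    rw [hb', hb, HD.P_inv, HD.P_mul]
    congr 1
    · linear_combination hl1
    · linear_combination hl2
  have e6 : t * (h⁻¹ * (t * h * t)) = (h⁻¹ * (t * h * t)) * t := by
    have : D.P (-b + b' + (-u * v' - -v * u')) (l * x) (l * y) =
        pw D.z (-b + b' + (-u * v' - -v * u') - l * a) * pw (D.P a x y) l := by
      rw [HD.pw_P, ← HD.P_z, HD.P_mul]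
      congr 1 <;> ring
    rw [e5, this]
    have h6 : t * pw (D.P a x y) l = pw (D.P a x y) l * t := by
      have := pw_comm (g := t) (h := D.P a x y) hg 1 l
      rwa [pw_one] at this
    rw [← mul_assoc, htz, mul_assoc, h6, mul_assoc]
  have e7 : (h⁻¹ * (t * h * t)) * (h⁻¹ * (t * h * t)) = 1 := by
    -- τ(e) = e, τ(h) = h e, h = τ τ h = h e e
    have e8 : t * (h⁻¹ * (t * h * t)) * t = (t * h⁻¹ * t) * h := by
      calc _ = (t * h⁻¹ * t) * h * (t * t) := by simp only [mul_assoc]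
        _ = _ := by rw [ht, mul_one]
    have e9 : t * (h⁻¹ * (t * h * t)) * t = h⁻¹ * (t * h * t) := by
      rw [e6, mul_assoc, ht, mul_one]
    rw [e9] at e8
    have e10 : (t * h⁻¹ * t) * (t * h * t) = 1 := by
      calc _ = t * h⁻¹ * (t * t) * h * t := by simp only [mul_assoc]
        _ = 1 := by rw [ht, mul_one, mul_assoc t, inv_mul_cancel, mul_one, ht]
    calc (h⁻¹ * (t * h * t)) * (h⁻¹ * (t * h * t)) = (t * h⁻¹ * t) * h * (h⁻¹ * (t * h * t)) := by rw [← e8]
      _ = (t * h⁻¹ * t) * (t * h * t) := by group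
      _ = 1 := e10
  have e11 : h⁻¹ * (t * h * t) = 1 := by
    apply eq_one_of_cube_sq e7
    rw [e5]
    exact D.P_pow_three _ _ _
  have e12 : t * h * t = h := (inv_mul_eq_one.1 e11).symm
  calc t * h = t * h * (t * t) := by rw [ht, mul_one]
    _ = (t * h * t) * t := by simp only [mul_assoc]
    _ = h * t := by rw [e12]

include hR in
theorem tau_inv {t : X} (ht : t * t = 1) (hz : t * D.z = D.z * t)
    (hns : ¬ ∀ g ∈ R, t * g = g * t) (a x y : ZMod 3) :
    ∃ a', t * D.P a x y * t = D.P a' (-x) (-y) := by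
  have hti : t⁻¹ = t := inv_eq_of_mul_eq_one_left ht
  have h3 := three_zero
  have hg : D.P a x y ∈ R := (hR _).2 ⟨_, _, _, rfl⟩
  have h1 : t * D.P a x y * t ∈ R := by
    have := hRn.conj_mem _ hg t
    rwa [hti] at this
  obtain ⟨a', x', y', hb'⟩ := (hR _).1 h1
  have htz : ∀ c, t * pw D.z c = pw D.z c * t := by
    intro c
    have := pw_comm (g := t) (h := D.z) hz 1 c
    rwa [pw_one] at this
  have e1 : D.P a x y * D.P a' x' y' = D.P (a + a' + (x * y' - y * x')) (x + x') (y + y') := HD.P_mul _ _ _ _ _ _ _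
  have e2 : D.P a' x' y' * D.P a x y = pw D.z (x * y' - y * x') * (D.P a x y * D.P a' x' y') := by
    rw [HD.P_mul, HD.P_mul, ← HD.P_z, HD.P_mul]
    congr 1
    · linear_combination -(x * y' - y * x') * h3
    · ring
    · ring
  have e2' : t * D.P a' x' y' * t = D.P a x y := by
    rw [← hb']
    calc _ = (t * t) * D.P a x y * (t * t) := by simp only [mul_assoc]
      _ = _ := by rw [ht, one_mul, mul_one]
  have e3 : t * (D.P a x y * D.P a' x' y') * t = D.P a' x' y' * D.P a x y := by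
    calc _ = t * D.P a x y * (t * t) * D.P a' x' y' * t := by rw [ht]; simp only [mul_assoc, one_mul, mul_one]
      _ = (t * D.P a x y * t) * (t * D.P a' x' y' * t) := by simp only [mul_assoc]
      _ = _ := by rw [e2', hb']
  rw [e2] at e3
  have e4 : D.P a x y * D.P a' x' y' =
      pw D.z (x * y' - y * x' + (x * y' - y * x')) * (D.P a x y * D.P a' x' y') := by
    have e5 : t * (t * (D.P a x y * D.P a' x' y') * t) * t = D.P a x y * D.P a' x' y' := by
      calc _ = (t * t) * (D.P a x y * D.P a' x' y') * (t * t) := by simp only [mul_assoc]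
        _ = _ := by rw [ht, one_mul, mul_one]
    rw [e3] at e5
    calc D.P a x y * D.P a' x' y' = t * (pw D.z (x * y' - y * x') * (D.P a x y * D.P a' x' y')) * t := e5.symm
      _ = pw D.z (x * y' - y * x') * (t * (D.P a x y * D.P a' x' y') * t) := by
        rw [← mul_assoc t, htz]
        simp only [mul_assoc]
      _ = _ := by rw [e3, pw_add D.z3, mul_assoc]
  have e5 : pw D.z (x * y' - y * x' + (x * y' - y * x')) = 1 := by
    have := e4.symm
    rwa [mul_eq_right] at this
  have e6 := two_mul_zero _ (pw_eq_one D.z3 D.ne e5)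
  rw [e6, pw_zero, one_mul] at e3
  have e7 : t * (D.P a x y * D.P a' x' y') = (D.P a x y * D.P a' x' y') * t := by
    calc _ = t * (D.P a x y * D.P a' x' y') * (t * t) := by rw [ht, mul_one]
      _ = (t * (D.P a x y * D.P a' x' y') * t) * t := by simp only [mul_assoc]
      _ = _ := by rw [e3]
  rw [e1] at e7
  obtain ⟨hx, hy⟩ := tau_fix R D hR ht hz hns e7
  refine ⟨a', ?_⟩
  rw [hb']
  congr 1
  · linear_combination hx
  · linear_combination hy

include hR in
theorem exists_D' (hcard : Nat.card R = 27) (hexp : ∀ g ∈ R, g ^ 3 = 1)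
    (hcom : commutator R ≤ Subgroup.center R) (hzc : ∀ x, x * D.z = D.z * x) {t : X} (ht : t * t = 1)
    (hns : ¬ ∀ g ∈ R, t * g = g * t) :
    ∃ D' : HD X, (∀ g, g ∈ R ↔ ∃ a x y, g = D'.P a x y) ∧ t * D'.r * t = D'.r⁻¹ ∧ t * D'.s * t = D'.s⁻¹ := by
  have h3 := three_zero
  obtain ⟨a, ha⟩ := tau_inv R D hR ht (hzc t) hns 0 1 0
  obtain ⟨b, hb⟩ := tau_inv R D hR ht (hzc t) hns 0 0 1
  have htz : ∀ c, t * pw D.z c = pw D.z c * t := by
    intro c
    have := pw_comm (g := t) (h := D.z) (hzc t) 1 c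
    rwa [pw_one] at this
  have key : ∀ a x y, t * D.P 0 x y * t = D.P a (-x) (-y) → t * D.P a x y * t = (D.P a x y)⁻¹ := by
    intro a x y h
    have e : D.P a x y = pw D.z a * D.P 0 x y := by
      rw [← HD.P_z, HD.P_mul]
      congr 1 <;> ring
    rw [HD.P_inv]
    rw [e, ← mul_assoc, htz, mul_assoc, mul_assoc, ← mul_assoc t, h, ← HD.P_z, HD.P_mul]
    congr 1
    · linear_combination a * h3
    · ring
    · ring
  obtain ⟨D', hr, hs, hD'⟩ := mkD R hcard hexp hcom (r := D.P a 1 0) (s := D.P b 0 1)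
    ((hR _).2 ⟨_, _, _, rfl⟩) ((hR _).2 ⟨_, _, _, rfl⟩) (by
      rw [Ne, HD.P_comm_iff]
      decide)
  refine ⟨D', hD', ?_, ?_⟩
  · rw [hr]; exact key _ _ _ ha
  · rw [hs]; exact key _ _ _ hb

end Cfsg.Agent.Lib.H12Shape
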