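import Cfsg.Agent.Lib.H12Shape4

/-! Groups of shape `3^{1+2}.SL(2,3)`: the action of the centralizer of the involution. -/

set_option autoImplicit false
set_option maxHeartbeats 400000
set_option maxRecDepth 10000

namespace Cfsg.Agent.Lib.H12Shape

open Matrix
open scoped MatrixGroups

variable {X : Type*} [Group X]

/-- `k` acts on the Heisenberg group with matrix `m` -/
def Act (D : HD X) (k : X) (m : SL(2, ZMod 3)) : Prop :=
  ∀ a x y, k * D.P a x y * k⁻¹ = D.P a (m.val 0 0 * x + m.val 0 1 * y) (m.val 1 0 * x + m.val 1 1 * y)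

theorem Act.mul {D : HD X} {k k' : X} {m m' : SL(2, ZMod 3)} (h : Act D k m) (h' : Act D k' m') :
    Act D (k * k') (m * m') := by
  intro a x y
  have : k * k' * D.P a x y * (k * k')⁻¹ = k * (k' * D.P a x y * k'⁻¹) * k⁻¹ := by group
  rw [this, h', h]
  have e : ∀ i j, (m * m').val i j = m.val i 0 * m'.val 0 j + m.val i 1 * m'.val 1 j := by
    intro i j
    rw [Matrix.SpecialLinearGroup.coe_mul, Matrix.mul_apply, Fin.sum_univ_two]
  congr 1
  · rw [e, e]; ring
  · rw [e, e]; ring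

theorem Act.uniq {D : HD X} {k : X} {m m' : SL(2, ZMod 3)} (h : Act D k m) (h' : Act D k m') : m = m' := by
  have h1 := (h 0 1 0).symm.trans (h' 0 1 0)
  have h2 := (h 0 0 1).symm.trans (h' 0 0 1)
  obtain ⟨-, h3, h4⟩ := D.P_inj h1
  obtain ⟨-, h5, h6⟩ := D.P_inj h2
  simp only [mul_one, mul_zero, add_zero, zero_add] at h3 h4 h5 h6
  apply Subtype.ext
  ext i j
  fin_cases i <;> fin_cases j
  · exact h3
  · exact h5
  · exact h4
  · exact h6

theorem tP (D : HD X) {t : X} (ht : t * t = 1) (hz : t * D.z = D.z * t) (hr : t * D.r * t = D.r⁻¹)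
    (hs : t * D.s * t = D.s⁻¹) (a x y : ZMod 3) : t * D.P a x y * t = D.P a (-x) (-y) := by
  have hti : t⁻¹ = t := inv_eq_of_mul_eq_one_left ht
  have htz : ∀ c, t * pw D.z c = pw D.z c * t := by
    intro c
    have := pw_comm (g := t) (h := D.z) hz 1 c
    rwa [pw_one] at this
  have h1 : t * pw D.r x * t = pw D.r (-x) := by
    have := pw_conj t D.r x
    rw [hti, hr, pw_inv_left D.r3] at this
    exact this
  have h2 : t * pw D.s y * t = pw D.s (-y) := by
    have := pw_conj t D.s y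
    rw [hti, hs, pw_inv_left D.s3] at this
    exact this
  unfold HD.P
  calc t * (pw D.z (a - x * y) * (pw D.r x * pw D.s y)) * t
      = t * pw D.z (a - x * y) * (pw D.r x * pw D.s y) * t := by simp only [mul_assoc]
    _ = pw D.z (a - x * y) * (t * pw D.r x * (t * t) * pw D.s y * t) := by
      rw [htz, ht]; simp only [mul_assoc, mul_one]
    _ = pw D.z (a - x * y) * ((t * pw D.r x * t) * (t * pw D.s y * t)) := by simp only [mul_assoc]
    _ = _ := by
      rw [h1, h2]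
      congr 2
      ring

variable (R : Subgroup X) [hRn : R.Normal] (D : HD X) (hR : ∀ g, g ∈ R ↔ ∃ a x y, g = D.P a x y)
  (hzc : ∀ x, x * D.z = D.z * x)
  {t : X} (ht : t * t = 1) (htr : t * D.r * t = D.r⁻¹) (hts : t * D.s * t = D.s⁻¹)

include hR hzc ht htr hts in
theorem conj_zero {k : X} (hk : k * t = t * k) {x y : ZMod 3} : ∃ u v, k * D.P 0 x y * k⁻¹ = D.P 0 u v := by
  obtain ⟨a, u, v, h⟩ := (hR _).1 (hRn.conj_mem _ ((hR _).2 ⟨0, x, y, rfl⟩) k)
  have h1 := tP D ht (hzc t) htr hts 0 x y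
  have h2 := tP D ht (hzc t) htr hts a u v
  have hti : t⁻¹ = t := inv_eq_of_mul_eq_one_left ht
  have hki : k⁻¹ * t = t * k⁻¹ := by
    rw [inv_mul_eq_iff_eq_mul, ← mul_assoc, hk, mul_inv_cancel_right]
  have h3 : t * (k * D.P 0 x y * k⁻¹) * t = (k * D.P 0 x y * k⁻¹)⁻¹ := by
    calc t * (k * D.P 0 x y * k⁻¹) * t = (t * k) * D.P 0 x y * (k⁻¹ * t) := by simp only [mul_assoc]
      _ = k * (t * D.P 0 x y * t) * k⁻¹ := by rw [← hk, hki]; simp only [mul_assoc]
      _ = k * (D.P 0 x y)⁻¹ * k⁻¹ := by rw [h1, HD.P_inv, neg_zero]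
      _ = _ := by group
  rw [h, h2, HD.P_inv] at h3
  have h4 := (D.P_inj h3).1
  have h5 : a = 0 := two_mul_zero a (by linear_combination h4)
  exact ⟨u, v, by rw [h, h5]⟩

include hR hzc ht htr hts in
theorem exists_act {k : X} (hk : k * t = t * k) : ∃ m, Act D k m := by
  have h3 := three_zero
  obtain ⟨x1, y1, h1⟩ := conj_zero R D hR hzc ht htr hts hk (x := 1) (y := 0)
  obtain ⟨x2, y2, h2⟩ := conj_zero R D hR hzc ht htr hts hk (x := 0) (y := 1)
  rw [HD.P_r] at h1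
  rw [HD.P_s] at h2
  have hkz : ∀ c, k * pw D.z c = pw D.z c * k := by
    intro c
    have := pw_comm (g := k) (h := D.z) (hzc k) 1 c
    rwa [pw_one] at this
  have hdet : x1 * y2 - x2 * y1 = 1 := by
    have e1 : (k * D.s * k⁻¹) * (k * D.r * k⁻¹) = D.z * ((k * D.r * k⁻¹) * (k * D.s * k⁻¹)) := by
      calc (k * D.s * k⁻¹) * (k * D.r * k⁻¹) = k * (D.s * D.r) * k⁻¹ := by group
        _ = (k * D.z) * (D.r * D.s) * k⁻¹ := by rw [D.rel]; simp only [mul_assoc]
        _ = _ := by rw [hzc]; group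
    rw [h1, h2, D.z_eq, HD.P_mul, HD.P_mul, HD.P_mul] at e1
    have := (D.P_inj e1).1
    linear_combination this + (x1 * y2 - x2 * y1) * h3
  refine ⟨⟨!![x1, x2; y1, y2], by rw [det_fin_two]; simpa using hdet⟩, ?_⟩
  intro a x y
  show _ = D.P a (x1 * x + x2 * y) (y1 * x + y2 * y)
  unfold HD.P
  have e : k * (pw D.z (a - x * y) * (pw D.r x * pw D.s y)) * k⁻¹ =
      pw D.z (a - x * y) * ((k * pw D.r x * k⁻¹) * (k * pw D.s y * k⁻¹)) := by
    calc _ = (k * pw D.z (a - x * y)) * (pw D.r x * pw D.s y) * k⁻¹ := by simp only [mul_assoc]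
      _ = _ := by rw [hkz]; group
  rw [e, pw_conj, pw_conj, h1, h2, HD.pw_P, HD.pw_P, ← HD.P_z, HD.P_mul, HD.P_mul]
  show D.P _ _ _ = D.P a (x1 * x + x2 * y) (y1 * x + y2 * y)
  congr 1
  · linear_combination (x * y) * hdet
  · ring
  · ring

variable (π : X →* SL(2, ZMod 3)) (hπ : Function.Surjective π) (hker : ∀ x, π x = 1 ↔ x ∈ R) (hpt : π t = -1)

include hR hzc ht htr hts hπ hker hpt in
theorem cent {x : X} (hx : ∀ g ∈ R, x * g = g * x) : x ∈ R := by
  by_contra hxR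
  have h1 : π x ≠ 1 := fun h => hxR ((hker _).1 h)
  -- the centralizer
  have hN : ∀ h : X, ∀ g ∈ R, (h * x * h⁻¹) * g = g * (h * x * h⁻¹) := by
    intro h g hg
    have h2 : h⁻¹ * g * h ∈ R := by
      have := hRn.conj_mem _ hg h⁻¹
      rwa [inv_inv] at this
    have h3 := hx _ h2
    calc (h * x * h⁻¹) * g = h * (x * (h⁻¹ * g * h)) * h⁻¹ := by group
      _ = _ := by rw [h3]; group
  let N := Subgroup.centralizer (R : Set X)
  have hmem : ∀ y, y ∈ N ↔ ∀ g ∈ R, y * g = g * y := by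
    intro y
    rw [Subgroup.mem_centralizer_iff]
    exact ⟨fun h g hg => (h g hg).symm, fun h g hg => (h g hg).symm⟩
  have hxN : x ∈ N := (hmem x).2 hx
  have hy : ∃ y ∈ N, π y = -1 := by
    obtain ⟨h, hh⟩ := fact_normal _ h1
    obtain ⟨h', rfl⟩ := hπ h
    have h4 : h' * x * h'⁻¹ ∈ N := (hmem _).2 (hN h')
    rcases hh with hh | hh | hh | hh
    · exact ⟨x, hxN, hh⟩
    · exact ⟨x * x, N.mul_mem hxN hxN, by rw [map_mul, hh]⟩
    · exact ⟨x * x * x, N.mul_mem (N.mul_mem hxN hxN) hxN, by rw [map_mul, map_mul, hh]⟩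
    · refine ⟨(h' * x * h'⁻¹ * x⁻¹) * (h' * x * h'⁻¹ * x⁻¹), ?_, ?_⟩
      · have := N.mul_mem h4 (N.inv_mem hxN)
        exact N.mul_mem this this
      · rw [map_mul, map_mul, map_mul, map_mul, map_inv, map_inv, hh]
  obtain ⟨y, hyN, hy⟩ := hy
  rw [hmem] at hyN
  have hd : y * t ∈ R := (hker _).1 (by rw [map_mul, hy, hpt, neg_one_sq])
  obtain ⟨a, u, v, hd'⟩ := (hR _).1 hd
  have hti : t⁻¹ = t := inv_eq_of_mul_eq_one_left ht
  have h5 : (y * t) * D.P 0 1 0 * (y * t)⁻¹ = D.P 0 (-1) (-0) := by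
    have e1 : D.P 0 (-1) (-0) ∈ R := (hR _).2 ⟨_, _, _, rfl⟩
    calc (y * t) * D.P 0 1 0 * (y * t)⁻¹ = y * (t * D.P 0 1 0 * t⁻¹) * y⁻¹ := by group
      _ = y * D.P 0 (-1) (-0) * y⁻¹ := by rw [hti, tP D ht (hzc t) htr hts]
      _ = _ := by rw [hyN _ e1, mul_inv_cancel_right]
  rw [hd', HD.P_conj] at h5
  have := (D.P_inj h5).2.1
  revert this
  decide

include hR hzc ht htr hts hπ hker hpt in
theorem act_one {k : X} (hk : Act D k 1) : ∃ a, k = pw D.z a := by
  have h1 : ∀ g ∈ R, k * g = g * k := by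
    intro g hg
    obtain ⟨a, x, y, rfl⟩ := (hR _).1 hg
    have := hk a x y
    simp only [Matrix.SpecialLinearGroup.coe_one, Matrix.one_apply_eq, one_mul, ne_eq, zero_ne_one, not_false_eq_true,
      Matrix.one_apply_ne, zero_mul, add_zero, one_ne_zero, zero_add] at this
    rw [mul_inv_eq_iff_eq_mul] at this
    exact this
  have h2 := cent R D hR hzc ht htr hts π hπ hker hpt h1
  obtain ⟨a, x, y, rfl⟩ := (hR _).1 h2
  have h3 := h1 (D.P 0 1 0) ((hR _).2 ⟨_, _, _, rfl⟩)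
  have h4 := h1 (D.P 0 0 1) ((hR _).2 ⟨_, _, _, rfl⟩)
  rw [HD.P_comm_iff] at h3 h4
  have hy : y = 0 := by linear_combination -h3
  have hx : x = 0 := by linear_combination h4
  exact ⟨a, by rw [hx, hy, HD.P_z]⟩

theorem act_z (a : ZMod 3) (hzc : ∀ x, x * D.z = D.z * x) : Act D (pw D.z a) 1 := by
  intro b x y
  have : pw D.z a * D.P b x y = D.P b x y * pw D.z a := by
    have h := pw_comm (g := D.z) (h := D.P b x y) (hzc _).symm a 1
    rwa [pw_one] at h
  rw [this, mul_inv_cancel_right]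
  simp

end Cfsg.Agent.Lib.H12Shape
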