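import Cfsg.Agent.Lib.H12Shape5

/-! Groups of shape `3^{1+2}.SL(2,3)`: the splitting and the isomorphism with the stabilizer in `Sp(4,3)`. -/

set_option autoImplicit false
set_option maxHeartbeats 400000
set_option maxRecDepth 10000

namespace Cfsg.Agent.Lib.H12Shape

open Matrix
open scoped MatrixGroups
open Cfsg.Agent.Lib.H88Sp4 (Sp)

variable {X : Type*} [Group X]

variable (R : Subgroup X) [hRn : R.Normal] (D : HD X) (hR : ∀ g, g ∈ R ↔ ∃ a x y, g = D.P a x y)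
  (hzc : ∀ x, x * D.z = D.z * x)
  {t : X} (ht : t * t = 1) (htr : t * D.r * t = D.r⁻¹) (hts : t * D.s * t = D.s⁻¹)
  (π : X →* SL(2, ZMod 3)) (hπ : Function.Surjective π) (hker : ∀ x, π x = 1 ↔ x ∈ R) (hpt : π t = -1)

include hR hzc ht htr hts hker hpt in
theorem exists_y [Finite X] (hcard : Nat.card R = 27) (hexp : ∀ g ∈ R, g ^ 3 = 1)
    (E : Subgroup X) (hE : IsMulCommutative E) (hE3 : ∀ a ∈ E, a ^ 3 = 1) (hEc : Nat.card E = 27) :
    ∃ y, y * t = t * y ∧ y ^ 3 = 1 ∧ π y ≠ 1 := by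
  have hcomm : ∀ a ∈ E, ∀ b ∈ E, a * b = b * a := by
    intro a ha b hb
    have := hE.is_comm.comm (⟨a, ha⟩ : E) ⟨b, hb⟩
    exact congrArg Subtype.val this
  -- an element outside R
  have h1 : ∃ g ∈ E, g ∉ R := by
    by_contra hcon
    push Not at hcon
    have hle : E ≤ R := hcon
    have heq : E = R := Subgroup.eq_of_le_of_card_ge hle (by rw [hEc, hcard])
    have h2 : D.P 0 1 0 ∈ E := by rw [heq]; exact (hR _).2 ⟨_, _, _, rfl⟩
    have h3 : D.P 0 0 1 ∈ E := by rw [heq]; exact (hR _).2 ⟨_, _, _, rfl⟩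
    have h4 := hcomm _ h2 _ h3
    rw [HD.P_comm_iff] at h4
    revert h4
    decide
  -- an element of E ∩ R outside Z
  have h2 : ∃ a x y, D.P a x y ∈ E ∧ ¬ (x = 0 ∧ y = 0) := by
    by_contra hcon
    have hcon' : ∀ a x y, D.P a x y ∈ E → x = 0 ∧ y = 0 := by
      intro a x y h
      by_contra h'
      exact hcon ⟨a, x, y, h, h'⟩
    let f : E →* SL(2, ZMod 3) := π.comp E.subtype
    have hf1 : Nat.card f.range ∣ 24 := by
      rw [← card_SL]
      exact Subgroup.card_subgroup_dvd_card _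
    have hf2 : Nat.card f.range ∣ 27 := by
      rw [← hEc]
      exact Subgroup.card_range_dvd f
    have hf3 : Nat.card f.range ∣ 3 := by
      have := Nat.dvd_gcd hf1 hf2
      exact this
    have hf4 : Nat.card f.ker * Nat.card f.range = 27 := by
      rw [← hEc, ← Subgroup.index_ker f]
      exact Subgroup.card_mul_index f.ker
    have hf5 : Nat.card f.range ≤ 3 := Nat.le_of_dvd (by norm_num) hf3
    have hf6 : Nat.card f.ker ≤ 3 := by
      have hk : ∀ k : f.ker, ∃ a, ((k : E) : X) = pw D.z a := by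
        intro k
        have hk1 : π ((k : E) : X) = 1 := k.2
        obtain ⟨a, x, y, h⟩ := (hR _).1 ((hker _).1 hk1)
        have hE' : D.P a x y ∈ E := by rw [← h]; exact (k : E).2
        obtain ⟨hx, hy⟩ := hcon' a x y hE'
        exact ⟨a, by rw [h, hx, hy, HD.P_z]⟩
      choose φ hφ using hk
      have hinj : Function.Injective φ := by
        intro k k' h
        apply Subtype.ext
        apply Subtype.ext
        rw [hφ, hφ, h]
      have := Nat.card_le_card_of_injective φ hinj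
      rwa [Nat.card_zmod] at this
    have := Nat.mul_le_mul hf6 hf5
    omega
  obtain ⟨g, hg, hgR⟩ := h1
  obtain ⟨α, x, y, ha, hxy⟩ := h2
  obtain ⟨d, hd, c, hct, hgc⟩ := frattini R π hker hexp ht hpt g
  obtain ⟨δ, u1, u2, hd'⟩ := (hR _).1 hd
  obtain ⟨m, hm⟩ := exists_act R D hR hzc ht htr hts hct
  have hπc : π c = π g := by rw [hgc, map_mul, (hker _).2 hd, one_mul]
  have h3 : g * D.P α x y * g⁻¹ = D.P α x y := by
    rw [hcomm _ hg _ ha, mul_inv_cancel_right]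
  have h4 : g * D.P α x y * g⁻¹ = d * (c * D.P α x y * c⁻¹) * d⁻¹ := by rw [hgc]; group
  rw [h4, hm, hd', HD.P_conj] at h3
  obtain ⟨e1, e2, e3⟩ := D.P_inj h3
  rw [e2, e3] at e1
  have e4 : x * u2 - y * u1 = 0 := by linear_combination e1
  obtain ⟨l, hl1, hl2⟩ := fact_line x y u1 u2 hxy e4
  have h5 : c * d = d * c := by
    have h6 := hm δ u1 u2
    have h7 : m.val 0 0 * u1 + m.val 0 1 * u2 = u1 := by rw [hl1, hl2]; linear_combination l * e2
    have h8 : m.val 1 0 * u1 + m.val 1 1 * u2 = u2 := by rw [hl1, hl2]; linear_combination l * e3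
    rw [h7, h8, ← hd', mul_inv_eq_iff_eq_mul] at h6
    exact h6
  refine ⟨c, hct, ?_, ?_⟩
  · have h6 := hE3 g hg
    rw [hgc, (show Commute d c from h5.symm).mul_pow, hexp d hd, one_mul] at h6
    exact h6
  · rw [hπc]
    exact fun h => hgR ((hker _).1 h)

include hR hzc ht htr hts hπ hker hpt in
theorem exists_H [Finite X] (hexp : ∀ g ∈ R, g ^ 3 = 1) {y : X} (hyt : y * t = t * y) (hy3 : y ^ 3 = 1)
    (hy1 : π y ≠ 1) : ∃ H : Subgroup X, (∀ h ∈ H, h * t = t * h) ∧ (∀ h ∈ H, π h = 1 → h = 1) ∧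
      ∀ g : SL(2, ZMod 3), ∃ h ∈ H, π h = g := by
  let C := Subgroup.centralizer ({t} : Set X)
  have hC : ∀ c : X, c ∈ C ↔ c * t = t * c := fun c => Subgroup.mem_centralizer_singleton_iff
  let f : C →* SL(2, ZMod 3) := π.comp C.subtype
  have hfs : Function.Surjective f := by
    intro g
    obtain ⟨x, rfl⟩ := hπ g
    obtain ⟨d, hd, c, hc, hx⟩ := frattini R π hker hexp ht hpt x
    refine ⟨⟨c, (hC c).2 hc⟩, ?_⟩
    show π c = π x
    rw [hx, map_mul, (hker _).2 hd, one_mul]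
  have hK : ∀ k : C, k ∈ f.ker → ∃ a, (k : X) = pw D.z a := by
    intro k hk
    have hk1 : π (k : X) = 1 := hk
    obtain ⟨a, x, y, h⟩ := (hR _).1 ((hker _).1 hk1)
    have h1 := tP D ht (hzc t) htr hts a x y
    have h2 := (hC _).1 k.2
    rw [← h, ← h2, mul_assoc, ht, mul_one, h] at h1
    obtain ⟨-, hx, hy⟩ := D.P_inj h1
    have hx' : x = 0 := two_mul_zero x (by linear_combination hx)
    have hy' : y = 0 := two_mul_zero y (by linear_combination hy)
    exact ⟨a, by rw [h, hx', hy', HD.P_z]⟩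
  have hKc : IsMulCommutative f.ker := by
    refine ⟨⟨?_⟩⟩
    rintro ⟨k, hk⟩ ⟨k', hk'⟩
    apply Subtype.ext
    apply Subtype.ext
    obtain ⟨a, ha⟩ := hK k hk
    obtain ⟨b, hb⟩ := hK k' hk'
    show (k : X) * (k' : X) = k' * k
    rw [ha, hb]
    exact pw_comm rfl a b
  have hKp : IsPGroup 3 f.ker := by
    rintro ⟨k, hk⟩
    obtain ⟨a, ha⟩ := hK k hk
    refine ⟨1, ?_⟩
    apply Subtype.ext
    apply Subtype.ext
    show (k : X) ^ (3 ^ 1) = 1
    rw [pow_one, ha, ← HD.P_z]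
    exact D.P_pow_three _ _ _
  have : Fact (Nat.Prime 3) := ⟨Nat.prime_three⟩
  let y' : C := ⟨y, (hC y).2 hyt⟩
  have hy'3 : y' ^ 3 = 1 := Subtype.ext hy3
  have hfy : f y' ≠ 1 := hy1
  have hfy3 : orderOf (f y') = 3 := orderOf_eq_prime (by rw [← map_pow, hy'3, map_one]) hfy
  let U := (Subgroup.zpowers (f y')).comap f
  have hU : f.ker ⊔ Subgroup.zpowers y' = U := by
    have h1 := Subgroup.comap_map_eq f (Subgroup.zpowers y')
    rw [MonoidHom.map_zpowers] at h1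
    rw [sup_comm]
    exact h1.symm
  have hKU : f.ker ≤ U := by rw [← hU]; exact le_sup_left
  have hUi : U.index = 8 := by
    have h1 : U.index = (Subgroup.zpowers (f y')).index := Subgroup.index_comap_of_surjective _ hfs
    have h2 := Subgroup.card_mul_index (Subgroup.zpowers (f y'))
    rw [Nat.card_zpowers, hfy3, card_SL] at h2
    omega
  have hcop : (Nat.card f.ker).Coprime U.index := by
    obtain ⟨n, hn⟩ := (IsPGroup.iff_card).1 hKp
    rw [hn, hUi]
    exact Nat.Coprime.pow_left _ (by norm_num)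
  have hAK : Subgroup.zpowers y' ⊓ f.ker = ⊥ := by
    rw [eq_bot_iff]
    rintro k ⟨hk1, hk2⟩
    obtain ⟨n, rfl⟩ := Subgroup.mem_zpowers_iff.1 hk1
    have h1 : f y' ^ n = 1 := by rw [← map_zpow]; exact hk2
    rw [← orderOf_dvd_iff_zpow_eq_one, hfy3] at h1
    obtain ⟨j, rfl⟩ := h1
    rw [Subgroup.mem_bot]
    have : ((3 : ℕ) : ℤ) * j = (3 : ℕ) * j := rfl
    rw [_root_.zpow_mul, zpow_natCast, hy'3, _root_.one_zpow]
  obtain ⟨H0, hH0⟩ := Gaschutz.exists_complement f.ker U hKU hcop (Subgroup.zpowers y') hAK hU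
  refine ⟨H0.map C.subtype, ?_, ?_, ?_⟩
  · rintro _ ⟨h, -, rfl⟩
    exact (hC _).1 h.2
  · rintro _ ⟨h, hh, rfl⟩ h1
    have h2 : h ∈ f.ker := h1
    have h3 : h ∈ f.ker ⊓ H0 := ⟨h2, hh⟩
    rw [hH0.disjoint.eq_bot, Subgroup.mem_bot] at h3
    rw [h3]; rfl
  · intro g
    obtain ⟨c, rfl⟩ := hfs g
    obtain ⟨⟨k, h⟩, hkh⟩ := hH0.2 c
    refine ⟨(h : C), ⟨h, h.2, rfl⟩, ?_⟩
    show f h = f c
    rw [← hkh]
    show f h = f (k * h)
    rw [map_mul, k.2, one_mul]

include hR hzc ht htr hts hπ hker hpt in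
theorem exists_phi [Finite X] (H : Subgroup X) (hHt : ∀ h ∈ H, h * t = t * h)
    (hH1 : ∀ h ∈ H, π h = 1 → h = 1) (hHs : ∀ g : SL(2, ZMod 3), ∃ h ∈ H, π h = g)
    {F : Type*} [Field F] (ι : ZMod 3 ≃+* F) :
    ∃ Φ : X →* Sp F, Function.Injective Φ ∧ (∀ x, ∃ a b c k, Φ x = Y a b c k) ∧
      ∀ a b c k, ∃ x, Φ x = Y a b c k := by
  have hact : ∀ h ∈ H, ∃ m, Act D h m := fun h hh => exists_act R D hR hzc ht htr hts (hHt h hh)
  have h1act : ∀ h ∈ H, Act D h 1 → h = 1 := by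
    intro h hh h1
    obtain ⟨a, ha⟩ := act_one R D hR hzc ht htr hts π hπ hker hpt h1
    apply hH1 h hh
    rw [hker, ha, ← HD.P_z]
    exact (hR _).2 ⟨_, _, _, rfl⟩
  have hactinv : ∀ h ∈ H, ∀ m, Act D h m → Act D h⁻¹ m⁻¹ := by
    intro h hh m hm
    obtain ⟨m', hm'⟩ := hact h⁻¹ (H.inv_mem hh)
    have h2 := hm'.mul hm
    rw [inv_mul_cancel] at h2
    have h3 : Act D (1 : X) 1 := by
      intro a x y
      simp
    rw [← eq_inv_of_mul_eq_one_left (h2.uniq h3)]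
    exact hm'
  let Rel : X → ZMod 3 → ZMod 3 → ZMod 3 → SL(2, ZMod 3) → Prop := fun x a u v m =>
    ∃ h ∈ H, x = D.P a u v * h ∧ Act D h m
  have htot : ∀ x, ∃ a u v m, Rel x a u v m := by
    intro x
    obtain ⟨h, hh, hhx⟩ := hHs (π x)
    have h2 : x * h⁻¹ ∈ R := (hker _).1 (by rw [map_mul, map_inv, hhx, mul_inv_cancel])
    obtain ⟨a, u, v, h3⟩ := (hR _).1 h2
    obtain ⟨m, hm⟩ := hact h hh
    exact ⟨a, u, v, m, h, hh, by rw [← h3, inv_mul_cancel_right], hm⟩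
  have huniq : ∀ x a u v m a' u' v' m', Rel x a u v m → Rel x a' u' v' m' → a = a' ∧ u = u' ∧ v = v' ∧ m = m' := by
    rintro x a u v m a' u' v' m' ⟨h, hh, hx, hm⟩ ⟨h', hh', hx', hm'⟩
    have e1 : π h = π h' := by
      have e2 : π x = π h := by rw [hx, map_mul, (hker _).2 ((hR _).2 ⟨_, _, _, rfl⟩), one_mul]
      have e3 : π x = π h' := by rw [hx', map_mul, (hker _).2 ((hR _).2 ⟨_, _, _, rfl⟩), one_mul]
      rw [← e2, e3]
    have e2 : h * h'⁻¹ = 1 := hH1 _ (H.mul_mem hh (H.inv_mem hh')) (by rw [map_mul, map_inv, e1, mul_inv_cancel])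
    have e3 : h = h' := mul_inv_eq_one.1 e2
    subst e3
    rw [hx] at hx'
    obtain ⟨e4, e5, e6⟩ := D.P_inj (mul_right_cancel hx')
    exact ⟨e4, e5, e6, hm.uniq hm'⟩
  have hmul : ∀ x a u v m x' a' u' v' m', Rel x a u v m → Rel x' a' u' v' m' →
      Rel (x * x') (a + a' + (u * (m.val 1 0 * u' + m.val 1 1 * v') - v * (m.val 0 0 * u' + m.val 0 1 * v')))
        (u + (m.val 0 0 * u' + m.val 0 1 * v')) (v + (m.val 1 0 * u' + m.val 1 1 * v')) (m * m') := by
    rintro x a u v m x' a' u' v' m' ⟨h, hh, hx, hm⟩ ⟨h', hh', hx', hm'⟩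
    refine ⟨h * h', H.mul_mem hh hh', ?_, hm.mul hm'⟩
    rw [← HD.P_mul, ← hm, hx, hx']
    group
  choose A U V M hrel using htot
  let Φ : X →* Sp F := MonoidHom.mk' (fun x => Y (ι (A x)) (ι (U x)) (ι (V x))
    (Matrix.SpecialLinearGroup.map (ι : ZMod 3 →+* F) (M x))) (by
      intro x x'
      obtain ⟨e1, e2, e3, e4⟩ := huniq _ _ _ _ _ _ _ _ _ (hrel (x * x')) (hmul _ _ _ _ _ _ _ _ _ _ (hrel x) (hrel x'))
      rw [Y_mul, e1, e2, e3, e4, map_mul (Matrix.SpecialLinearGroup.map (ι : ZMod 3 →+* F))]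
      have e : ∀ i j, H88Sp4.mt (Matrix.SpecialLinearGroup.map (ι : ZMod 3 →+* F) (M x)) i j = ι ((M x).val i j) :=
        fun i j => rfl
      rw [e, e, e, e]
      simp only [map_add, map_mul, map_sub])
  have hΦ : ∀ x a u v m, Rel x a u v m → Φ x = Y (ι a) (ι u) (ι v)
      (Matrix.SpecialLinearGroup.map (ι : ZMod 3 →+* F) m) := by
    intro x a u v m h
    obtain ⟨e1, e2, e3, e4⟩ := huniq _ _ _ _ _ _ _ _ _ (hrel x) h
    show Y (ι (A x)) (ι (U x)) (ι (V x)) (Matrix.SpecialLinearGroup.map (ι : ZMod 3 →+* F) (M x)) = _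
    rw [e1, e2, e3, e4]
  have hmapinj : ∀ m : SL(2, ZMod 3), Matrix.SpecialLinearGroup.map (ι : ZMod 3 →+* F) m = 1 → m = 1 := by
    intro m hm
    apply Subtype.ext
    ext i j
    have h1 := congrFun (congrFun (congrArg Subtype.val hm) i) j
    have h2 : ι (m.val i j) = ι ((1 : Matrix (Fin 2) (Fin 2) (ZMod 3)) i j) := by
      have h3 : ι ((1 : Matrix (Fin 2) (Fin 2) (ZMod 3)) i j) = (1 : Matrix (Fin 2) (Fin 2) F) i j := by
        rw [Matrix.one_apply, Matrix.one_apply]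
        split_ifs <;> simp
      rw [h3]
      exact h1
    exact ι.injective h2
  refine ⟨Φ, ?_, ?_, ?_⟩
  · rw [injective_iff_map_eq_one]
    intro x hx
    obtain ⟨a, u, v, m, h⟩ : ∃ a u v m, Rel x a u v m := ⟨_, _, _, _, hrel x⟩
    rw [hΦ x _ _ _ _ h, ← Y_zero] at hx
    obtain ⟨e1, e2, e3, e4⟩ := Y_inj hx
    have e4' := hmapinj _ e4
    rw [map_eq_zero_iff ι ι.injective] at e1 e2 e3
    subst e1 e2 e3 e4'
    obtain ⟨k, hk, hx', hm⟩ := h
    rw [hx', HD.P_zero, one_mul]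
    exact h1act k hk hm
  · intro x
    exact ⟨_, _, _, _, rfl⟩
  · intro a b c k
    obtain ⟨a, rfl⟩ := ι.surjective a
    obtain ⟨b, rfl⟩ := ι.surjective b
    obtain ⟨c, rfl⟩ := ι.surjective c
    -- a preimage of k
    obtain ⟨k', rfl⟩ : ∃ k' : SL(2, ZMod 3), Matrix.SpecialLinearGroup.map (ι : ZMod 3 →+* F) k' = k := by
      refine ⟨Matrix.SpecialLinearGroup.map (ι.symm : F →+* ZMod 3) k, ?_⟩
      apply Subtype.ext
      ext i j
      exact ι.apply_symm_apply _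
    -- the action is onto
    choose M' hM' using hact
    let f : H → SL(2, ZMod 3) := fun h => M' h h.2
    have hf : Function.Injective f := by
      intro h h' e
      have e1 := (hM' h h.2)
      have e2 := hactinv _ h'.2 _ (hM' h' h'.2)
      have e3 := e1.mul e2
      have e4 : M' h h.2 = M' h' h'.2 := e
      rw [e4, mul_inv_cancel] at e3
      have e5 := h1act _ (H.mul_mem h.2 (H.inv_mem h'.2)) e3
      exact Subtype.ext (mul_inv_eq_one.1 e5)
    let g : H → SL(2, ZMod 3) := fun h => π h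
    have hg : Function.Bijective g := by
      constructor
      · intro h h' e
        have e1 : π (h * (h' : X)⁻¹) = 1 := by
          have e2 : π (h : X) = π (h' : X) := e
          rw [map_mul, map_inv, e2, mul_inv_cancel]
        exact Subtype.ext (mul_inv_eq_one.1 (hH1 _ (H.mul_mem h.2 (H.inv_mem h'.2)) e1))
      · intro m
        obtain ⟨h, hh, hm⟩ := hHs m
        exact ⟨⟨h, hh⟩, hm⟩
    have hfb : Function.Bijective f := by
      rw [Nat.bijective_iff_injective_and_card]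
      exact ⟨hf, Nat.card_congr (Equiv.ofBijective g hg)⟩
    obtain ⟨h, hh⟩ := hfb.2 k'
    refine ⟨D.P a b c * h, hΦ _ _ _ _ _ ⟨h, h.2, rfl, ?_⟩⟩
    rw [← hh]
    exact hM' h h.2

end Cfsg.Agent.Lib.H12Shape
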