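import Cfsg.Agent.Lib.H12FixA
import Cfsg.Agent.Lib.FratRep

/-! Groups generated by two conjugates of an element of prime order `p > 3`: the module. -/

set_option autoImplicit false
set_option maxHeartbeats 400000

namespace Cfsg.Agent.Lib.H12Two

open Module H12Fix

/-- nonfaithful version of the fixed space theorem -/
theorem field_case' {k : Type*} [Field k] {V : Type*} [AddCommGroup V] [Module k V] {G : Type*} [Group G]
    [FiniteDimensional k V] [Nontrivial V] [Finite G] [Group.IsSolvable G] {p ℓ : ℕ} [hp : Fact p.Prime]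
    [Fact ℓ.Prime] [CharP k ℓ] (hp3 : 3 < p) (ρ : G →* Module.End k V)
    (hirr : ∀ W : Submodule k V, (∀ g, ∀ w ∈ W, ρ g w ∈ W) → W = ⊥ ∨ W = ⊤) {x : G} (hx : x ^ p = 1) (hx1 : ρ x ≠ 1)
    (hgen : Subgroup.normalClosure ({x} : Set G) = ⊤) (C : Submodule k V) (hC : ∀ v, v ∈ C ↔ ρ x v = v) :
    2 * Module.finrank k C < Module.finrank k V := by
  let u : G →* (Module.End k V)ˣ := ρ.toHomUnits
  have hu : ∀ g, ((u g : (Module.End k V)ˣ) : Module.End k V) = ρ g := fun g => rfl
  let σ : u.range →* Module.End k V := (Units.coeHom _).comp u.range.subtype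
  have hσi : Function.Injective σ := by
    intro a b h
    apply Subtype.ext
    exact Units.ext h
  have hfin : Finite u.range := Finite.of_surjective _ u.rangeRestrict_surjective
  have hsol : Group.IsSolvable u.range := Group.isSolvable_of_surjective u.rangeRestrict_surjective
  have hσ : ∀ g, σ (u.rangeRestrict g) = ρ g := fun g => rfl
  refine field_case (G := u.range) (ℓ := ℓ) hp3 σ hσi ?_ (x := u.rangeRestrict x) ?_ ?_ ?_ C ?_
  · intro W hW
    exact hirr W (fun g w hw => hW (u.rangeRestrict g) w hw)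
  · rw [← map_pow, hx, map_one]
  · intro h
    apply hx1
    rw [← hσ, h, map_one]
  · have h1 := Subgroup.map_normalClosure ({x} : Set G) u.rangeRestrict u.rangeRestrict_surjective
    rw [hgen, Set.image_singleton, ← MonoidHom.range_eq_map] at h1
    rw [← h1]
    exact MonoidHom.range_eq_top.2 u.rangeRestrict_surjective
  · intro v
    rw [hC]; rfl

theorem mod_case {A V : Type*} [Group A] [Finite A] [Group.IsSolvable A] {p r : ℕ} [hp : Fact p.Prime] [hr : Fact r.Prime]
    [AddCommGroup V] [Module (ZMod r) V] [Finite V] [Nontrivial V]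
    (hp3 : 3 < p) (ρ : A →* Module.End (ZMod r) V)
    {x a : A} (hx : x ^ p = 1) (hA : Subgroup.zpowers x ⊔ Subgroup.zpowers (a * x * a⁻¹) = ⊤)
    (hnt : ρ ≠ 1)
    (hirr : ∀ W : Submodule (ZMod r) V, (∀ g, ∀ w ∈ W, ρ g w ∈ W) → W = ⊥ ∨ W = ⊤)
    (hprod : ∀ e : V, ∃ w t, e = w + t ∧ ρ x w = w ∧ ρ (a * x * a⁻¹) t = t) : False := by
  have hfd : FiniteDimensional (ZMod r) V := Module.Finite.of_finite
  have hgen : Subgroup.normalClosure ({x} : Set A) = ⊤ := by
    rw [eq_top_iff, ← hA]
    have hxx : x ∈ Subgroup.normalClosure ({x} : Set A) := Subgroup.subset_normalClosure (Set.mem_singleton x)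
    refine sup_le ?_ ?_
    · rw [Subgroup.zpowers_le]; exact hxx
    · rw [Subgroup.zpowers_le]
      exact (Subgroup.normalClosure_normal).conj_mem x hxx a
  have hx1 : ρ x ≠ 1 := by
    intro h
    apply hnt
    have h1 : ρ.ker = ⊤ := by
      rw [eq_top_iff, ← hgen]
      apply Subgroup.normalClosure_le_normal
      rw [Set.singleton_subset_iff]
      exact h
    ext1 g
    have h2 : g ∈ ρ.ker := by rw [h1]; trivial
    exact h2
  let C : Submodule (ZMod r) V := LinearMap.ker (ρ x - 1)
  have hC : ∀ v, v ∈ C ↔ ρ x v = v := by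
    intro v
    rw [LinearMap.mem_ker, LinearMap.sub_apply, Module.End.one_apply, sub_eq_zero]
  have key := field_case' (ℓ := r) hp3 ρ hirr hx hx1 hgen C hC
  have htop : C ⊔ C.map (ρ a) = ⊤ := by
    rw [eq_top_iff]
    intro v _
    obtain ⟨w, t, rfl, hw, ht⟩ := hprod v
    refine Submodule.add_mem_sup ?_ ?_
    · rw [hC, hw]
    · refine ⟨ρ a⁻¹ t, ?_, ?_⟩
      · rw [SetLike.mem_coe, hC, ← Module.End.mul_apply, ← map_mul]
        have h2 : x * a⁻¹ = a⁻¹ * (a * x * a⁻¹) := by group
        rw [h2, map_mul, Module.End.mul_apply, ht]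
      · rw [← Module.End.mul_apply, ← map_mul, mul_inv_cancel, map_one]; rfl
  have h1 : Module.finrank (ZMod r) (C ⊔ C.map (ρ a) : Submodule (ZMod r) V) ≤
      Module.finrank (ZMod r) C + Module.finrank (ZMod r) (C.map (ρ a)) :=
    Submodule.finrank_add_le_finrank_add_finrank _ _
  rw [htop, finrank_top] at h1
  have h2 : Module.finrank (ZMod r) (C.map (ρ a)) ≤ Module.finrank (ZMod r) C := Submodule.finrank_map_le _ _
  omega

end Cfsg.Agent.Lib.H12Two
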