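import Cfsg.Agent.Lib.H12Two1

/-! Groups generated by two conjugates of an element of prime order `p > 3`: the supplement argument. -/

set_option autoImplicit false
set_option maxHeartbeats 800000

namespace Cfsg.Agent.Lib.H12Two

open Module H12Fix FratRep Subgroup
open scoped commutatorElement

universe u

theorem core2 {G : Type u} [Group G] [Finite G] [Group.IsSolvable G] {p r : ℕ} [hp : Fact p.Prime] [hr : Fact r.Prime]
    (hp3 : 3 < p) {V : Type u} [AddCommGroup V] [Module (ZMod r) V] [Finite V]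
    (N A Q : Subgroup G) [hNn : N.Normal] (hN : IsPGroup r N) (D : Data r N V) (hAN : A ⊔ N = ⊤) (hQA : Q ≤ A)
    (hAQ : A ≤ normalizer (Q : Set G)) (hQr : (Nat.card Q).Coprime r) {x a : G} (hx : x ^ p = 1) (hxA : x ∈ A)
    (ha : a ∈ A) (hA : A = zpowers x ⊔ zpowers (a * x * a⁻¹)) (hNQ : ⁅N, Q⁆ = N) (hN1 : N ≠ ⊥)
    (hmin : ∀ M : Subgroup G, M ≤ N → M ≠ N → A ≤ normalizer (M : Set G) → Q ≤ centralizer (M : Set G))
    (hK : ∀ u ∈ N, zpowers x ⊔ zpowers ((u * a) * x * (u * a)⁻¹) ≠ ⊤) : False := by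
  classical
  have hQf : Fintype Q := Fintype.ofFinite Q
  have hπinv : ∀ n : N, D.π n⁻¹ = - D.π n := D.map_inv
  have hπ1 : D.π 1 = 0 := D.map_one
  have hQne : ((Fintype.card Q : ℕ) : ZMod r) ≠ 0 := by
    rw [← Nat.card_eq_fintype_card]
    intro h
    rw [ZMod.natCast_eq_zero_iff] at h
    have h1 := Nat.dvd_gcd h (dvd_refl r)
    rw [hQr.gcd_eq_one] at h1
    exact hr.out.one_lt.ne' (Nat.dvd_one.1 h1)
  -- averaging over Q
  let T : Module.End (ZMod r) V := ∑ y : Q, D.ρ (y : G)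
  have hTy : ∀ (y : G), y ∈ Q → ∀ w, T (D.ρ y w) = T w := by
    intro y hy w
    show (∑ y : Q, D.ρ (y : G)) (D.ρ y w) = (∑ y : Q, D.ρ (y : G)) w
    rw [← Module.End.mul_apply, Finset.sum_mul]
    congr 1
    exact Fintype.sum_equiv (Equiv.mulRight (⟨y, hy⟩ : Q)) _ _ (fun m => by rw [← map_mul]; rfl)
  have hconj : ∀ (g : G) (n : N), g * n * g⁻¹ ∈ N := fun g n => hNn.conj_mem n n.2 g
  have hT0 : ∀ v, T v = 0 := by
    let S : Subgroup N :=
      { carrier := {n | T (D.π n) = 0}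
        mul_mem' := fun {a b} ha hb => by
          show T (D.π (a * b)) = 0
          have ha' : T (D.π a) = 0 := ha
          have hb' : T (D.π b) = 0 := hb
          rw [D.map_mul, map_add, ha', hb', add_zero]
        one_mem' := by show T (D.π 1) = 0; rw [hπ1, map_zero]
        inv_mem' := fun {a} ha => by
          show T (D.π a⁻¹) = 0
          have ha' : T (D.π a) = 0 := ha
          rw [hπinv, map_neg, ha', neg_zero] }
    have hS : ∀ n, n ∈ S ↔ T (D.π n) = 0 := fun n => Iff.rfl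
    have h1 : N ≤ S.map N.subtype := by
      conv_lhs => rw [← hNQ]
      rw [commutator_le]
      intro n hn y hy
      have h2 : y * n⁻¹ * y⁻¹ ∈ N := hNn.conj_mem _ (inv_mem hn) y
      refine ⟨⟨n, hn⟩ * ⟨y * n⁻¹ * y⁻¹, h2⟩, ?_, ?_⟩
      · rw [SetLike.mem_coe, hS, D.map_mul, map_add]
        have h3 := D.apply y ⟨n⁻¹, inv_mem hn⟩
        have h4 : D.π ⟨y * n⁻¹ * y⁻¹, h2⟩ = D.ρ y (D.π ⟨n⁻¹, inv_mem hn⟩) := h3.symm
        rw [h4, hTy y hy, ← map_add, ← D.map_mul]
        have h5 : (⟨n, hn⟩ : N) * ⟨n⁻¹, inv_mem hn⟩ = 1 := Subtype.ext (mul_inv_cancel n)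
        rw [h5, hπ1, map_zero]
      · show n * (y * n⁻¹ * y⁻¹) = ⁅n, y⁆
        rw [commutatorElement_def]; group
    intro v
    obtain ⟨n, rfl⟩ := D.surj v
    obtain ⟨m, hm, hmn⟩ := h1 n.2
    have : m = n := Subtype.ext hmn
    rw [← this]
    exact hm
  have hCQ : ∀ v, (∀ y ∈ Q, D.ρ y v = v) → v = 0 := by
    intro v hv
    have h1 : T v = (Fintype.card Q : ZMod r) • v := by
      show (∑ y : Q, D.ρ (y : G)) v = _
      rw [LinearMap.sum_apply, Finset.sum_congr rfl (fun (y : Q) _ => hv y y.2), Finset.sum_const, Finset.card_univ,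
        Nat.cast_smul_eq_nsmul]
    rw [hT0 v] at h1
    exact (smul_eq_zero.1 h1.symm).resolve_left hQne
  have hVnt : Nontrivial V := by
    by_contra hcon
    rw [not_nontrivial_iff_subsingleton] at hcon
    have h1 : frattini N = ⊤ := by
      rw [eq_top_iff]
      intro n _
      rw [← D.map_eq_zero]
      exact Subsingleton.elim _ _
    have h2 : (⊥ : Subgroup N) = ⊤ := frattini_nongenerating (by rw [h1, sup_top_eq])
    apply hN1
    rw [eq_bot_iff]
    intro n hn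
    have : (⟨n, hn⟩ : N) ∈ (⊥ : Subgroup N) := by rw [h2]; trivial
    exact congrArg Subtype.val (Subgroup.mem_bot.1 this)
  -- irreducibility
  have hirr : ∀ W : Submodule (ZMod r) V, (∀ g ∈ A, ∀ w ∈ W, D.ρ g w ∈ W) → W = ⊥ ∨ W = ⊤ := by
    intro W hW
    let M : Subgroup G :=
      { carrier := {g | ∃ h : g ∈ N, D.π ⟨g, h⟩ ∈ W}
        mul_mem' := fun {a b} ha hb => by
          obtain ⟨ha, ha'⟩ := ha
          obtain ⟨hb, hb'⟩ := hb
          refine ⟨mul_mem ha hb, ?_⟩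
          have : (⟨a * b, mul_mem ha hb⟩ : N) = ⟨a, ha⟩ * ⟨b, hb⟩ := rfl
          rw [this, D.map_mul]
          exact W.add_mem ha' hb'
        one_mem' := ⟨one_mem _, by
          have : (⟨1, one_mem _⟩ : N) = 1 := rfl
          rw [this, hπ1]; exact W.zero_mem⟩
        inv_mem' := fun {a} ha => by
          obtain ⟨ha, ha'⟩ := ha
          refine ⟨inv_mem ha, ?_⟩
          have : (⟨a⁻¹, inv_mem ha⟩ : N) = ⟨a, ha⟩⁻¹ := rfl
          rw [this, hπinv]
          exact W.neg_mem ha' }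
    have hM : ∀ g, g ∈ M ↔ ∃ h : g ∈ N, D.π ⟨g, h⟩ ∈ W := fun g => Iff.rfl
    have hMN : M ≤ N := fun g hg => hg.1
    have hMA1 : ∀ g ∈ A, ∀ m ∈ M, g * m * g⁻¹ ∈ M := by
      rintro g hg m ⟨hm, hm'⟩
      refine ⟨hNn.conj_mem m hm g, ?_⟩
      have := D.apply g ⟨m, hm⟩
      have h2 : D.π ⟨g * m * g⁻¹, hNn.conj_mem m hm g⟩ = D.ρ g (D.π ⟨m, hm⟩) := this.symm
      rw [h2]
      exact hW g hg _ hm'
    have hMA : A ≤ normalizer (M : Set G) := by
      intro g hg
      rw [mem_normalizer_iff]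
      intro m
      constructor
      · exact hMA1 g hg m
      · intro h
        have := hMA1 g⁻¹ (inv_mem hg) _ h
        have e : g⁻¹ * (g * m * g⁻¹) * g⁻¹⁻¹ = m := by group
        rwa [e] at this
    by_cases hMN' : M = N
    · right
      rw [eq_top_iff]
      intro v _
      obtain ⟨n, rfl⟩ := D.surj v
      have : (n : G) ∈ M := by rw [hMN']; exact n.2
      obtain ⟨h1, h2⟩ := this
      exact h2
    · left
      rw [eq_bot_iff]
      intro v hv
      rw [Submodule.mem_bot]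
      apply hCQ
      intro y hy
      obtain ⟨n, rfl⟩ := D.surj v
      have h1 := hmin M hMN hMN' hMA hy
      have h2 : (n : G) * y = y * n := (mem_centralizer_iff.1 h1) n ⟨n.2, hv⟩
      rw [D.apply]
      congr 1
      apply Subtype.ext
      show y * (n : G) * y⁻¹ = n
      rw [← h2]; group
  -- N acts trivially
  have hNtriv : ∀ n ∈ N, ∀ v, D.ρ n v = v := by
    intro n hn v
    obtain ⟨m, rfl⟩ := D.surj v
    rw [D.apply]
    have h1 : (⟨n * m * n⁻¹, D.conj_mem n m⟩ : N) = ⟨n, hn⟩ * m * ⟨n, hn⟩⁻¹ := rfl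
    rw [h1, D.map_mul, D.map_mul, hπinv]
    abel
  -- the subgroups K_u
  let K : G → Subgroup G := fun u => zpowers x ⊔ zpowers ((u * a) * x * (u * a)⁻¹)
  have hxK : ∀ u, x ∈ K u := fun u => mem_sup_left (mem_zpowers x)
  have hyK : ∀ u, (u * a) * x * (u * a)⁻¹ ∈ K u := fun u => mem_sup_right (mem_zpowers _)
  have hKN : ∀ u ∈ N, K u ⊔ N = ⊤ := by
    intro u hu
    rw [eq_top_iff, ← hAN]
    refine sup_le ?_ le_sup_right
    rw [hA]
    refine sup_le ?_ ?_
    · rw [zpowers_le]; exact mem_sup_left (hxK u)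
    · rw [zpowers_le]
      have e : a * x * a⁻¹ = u⁻¹ * ((u * a) * x * (u * a)⁻¹) * u := by group
      rw [e]
      exact mul_mem (mul_mem (mem_sup_right (inv_mem hu)) (mem_sup_left (hyK u))) (mem_sup_right hu)
  have hfac : ∀ u ∈ N, ∀ g : G, ∃ n : N, g * n ∈ K u := by
    intro u hu g
    have h1 : g ∈ K u ⊔ N := by rw [hKN u hu]; trivial
    obtain ⟨k, hk, n, hn, rfl⟩ := mem_sup_of_normal_right.1 h1
    exact ⟨⟨n, hn⟩⁻¹, by
      show k * n * n⁻¹ ∈ K u
      rw [mul_inv_cancel_right]; exact hk⟩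
  -- intersection
  have hKint : ∀ u ∈ N, ∀ z : N, (z : G) ∈ K u → D.π z = 0 := by
    intro u hu
    let W0 : AddSubgroup V :=
      { carrier := {v | ∃ z : N, (z : G) ∈ K u ∧ D.π z = v}
        add_mem' := by
          rintro _ _ ⟨z, hz, rfl⟩ ⟨w, hw, rfl⟩
          exact ⟨z * w, mul_mem hz hw, D.map_mul z w⟩
        zero_mem' := ⟨1, one_mem _, hπ1⟩
        neg_mem' := by
          rintro _ ⟨z, hz, rfl⟩
          exact ⟨z⁻¹, inv_mem hz, hπinv z⟩ }
    let W : Submodule (ZMod r) V := AddSubgroup.toZModSubmodule r W0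
    have hW : ∀ v, v ∈ W ↔ ∃ z : N, (z : G) ∈ K u ∧ D.π z = v := fun v => Iff.rfl
    rcases hirr W (by
      intro g _ w hw
      obtain ⟨z, hz, rfl⟩ := (hW _).1 hw
      obtain ⟨n, hn⟩ := hfac u hu g
      rw [hW]
      have hg : D.ρ g (D.π z) = D.ρ (g * n) (D.π z) := by
        rw [map_mul, Module.End.mul_apply, hNtriv n n.2]
      rw [hg, D.apply]
      exact ⟨_, mul_mem (mul_mem hn hz) (inv_mem hn), rfl⟩) with h | h
    · intro z hz
      have : D.π z ∈ W := ⟨z, hz, rfl⟩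
      rw [h, Submodule.mem_bot] at this
      exact this
    · exfalso
      apply hK u hu
      have h1 : (K u).subgroupOf N ⊔ frattini N = ⊤ := by
        rw [eq_top_iff]
        intro n _
        have h2 : D.π n ∈ W := by rw [h]; trivial
        obtain ⟨z, hz, hzn⟩ := h2
        have h3 : z⁻¹ * n ∈ frattini N := by
          rw [← D.map_eq_zero, D.map_mul, hπinv, hzn, neg_add_cancel]
        have h4 : n = z * (z⁻¹ * n) := by group
        rw [h4]
        exact mul_mem_sup hz h3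
      have h2 := frattini_nongenerating h1
      have h3 : N ≤ K u := by
        intro n hn
        have : (⟨n, hn⟩ : N) ∈ (K u).subgroupOf N := by rw [h2]; trivial
        exact this
      have h4 := hKN u hu
      rwa [sup_eq_left.2 h3] at h4
  -- the cocycle
  have hprod : ∀ e : V, ∃ w t, e = w + t ∧ D.ρ x w = w ∧ D.ρ (a * x * a⁻¹) t = t := by
    intro e
    obtain ⟨u, rfl⟩ := D.surj e
    choose n hn using hfac u u.2
    let f : G → V := fun g => D.π (n g)
    have hf : ∀ (g : G) (m : N), g * m ∈ K u → f g = D.π m := by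
      intro g m hm
      have h1 : ((n g : G))⁻¹ * m ∈ K u := by
        have := mul_mem (inv_mem (hn g)) hm
        have e : (g * (n g : G))⁻¹ * (g * m) = ((n g : G))⁻¹ * m := by group
        rwa [e] at this
      have h2 := hKint u u.2 ((n g)⁻¹ * m) h1
      rw [D.map_mul, hπinv] at h2
      show D.π (n g) = D.π m
      rw [eq_comm, ← sub_eq_zero, sub_eq_neg_add]
      exact h2
    have hcoc : ∀ g h, f (g * h) = D.ρ h⁻¹ (f g) + f h := by
      intro g h
      have h1 : h⁻¹ * (n g : G) * h⁻¹⁻¹ ∈ N := hNn.conj_mem _ (n g).2 h⁻¹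
      have h2 := hf (g * h) (⟨h⁻¹ * (n g : G) * h⁻¹⁻¹, h1⟩ * n h) (by
        have e : g * h * ((⟨h⁻¹ * (n g : G) * h⁻¹⁻¹, h1⟩ * n h : N) : G) = (g * n g) * (h * n h) := by
          show g * h * ((h⁻¹ * (n g : G) * h⁻¹⁻¹) * (n h : G)) = _
          group
        rw [e]
        exact mul_mem (hn g) (hn h))
      rw [h2, D.map_mul]
      congr 1
      exact (D.apply h⁻¹ (n g)).symm
    have hf1 : ∀ g ∈ K u, f g = 0 := by
      intro g hg
      rw [hf g 1 (by show g * 1 ∈ K u; rw [mul_one]; exact hg), hπ1]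
    -- coboundary on Q
    let S : V := ∑ y : Q, f (y : G)
    have hS : ∀ h ∈ Q, S = D.ρ h⁻¹ S + (Fintype.card Q : ZMod r) • f h := by
      intro h hh
      have h1 : ∑ y : Q, f ((y : G) * h) = S :=
        Fintype.sum_equiv (Equiv.mulRight (⟨h, hh⟩ : Q)) _ _ (fun m => rfl)
      have h2 : ∑ y : Q, f ((y : G) * h) = ∑ y : Q, (D.ρ h⁻¹ (f (y : G)) + f h) :=
        Finset.sum_congr rfl (fun y _ => hcoc y h)
      rw [Finset.sum_add_distrib, ← map_sum, Finset.sum_const, Finset.card_univ, ← Nat.cast_smul_eq_nsmul (ZMod r)] at h2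
      rw [← h1]
      exact h2.trans (by rw [h1])
    let v : V := ((Fintype.card Q : ZMod r))⁻¹ • S
    have hv : ∀ h ∈ Q, f h = v - D.ρ h⁻¹ v := by
      intro h hh
      have h1 := hS h hh
      have h2 : (Fintype.card Q : ZMod r) • f h = S - D.ρ h⁻¹ S := by
        rw [eq_sub_iff_add_eq, add_comm]; exact h1.symm
      have h3 : f h = ((Fintype.card Q : ZMod r))⁻¹ • ((Fintype.card Q : ZMod r) • f h) := by
        rw [smul_smul, inv_mul_cancel₀ hQne, one_smul]
      rw [h3, h2, smul_sub, map_smul]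
    let f' : G → V := fun g => f g - (v - D.ρ g⁻¹ v)
    have hf'coc : ∀ g h, f' (g * h) = D.ρ h⁻¹ (f' g) + f' h := by
      intro g h
      show f (g * h) - (v - D.ρ (g * h)⁻¹ v) = D.ρ h⁻¹ (f g - (v - D.ρ g⁻¹ v)) + (f h - (v - D.ρ h⁻¹ v))
      rw [hcoc, mul_inv_rev, map_mul, Module.End.mul_apply, map_sub, map_sub]
      abel
    have hf'Q : ∀ h ∈ Q, f' h = 0 := by
      intro h hh
      show f h - (v - D.ρ h⁻¹ v) = 0
      rw [hv h hh, sub_self]
    have hf'A : ∀ g ∈ A, f' g = 0 := by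
      intro g hg
      apply hCQ
      intro y hy
      have h1 := hf'coc g y⁻¹
      rw [hf'Q _ (inv_mem hy), add_zero, inv_inv] at h1
      have h2 : g * y⁻¹ * g⁻¹ ∈ Q := ((mem_normalizer_iff.1 (hAQ hg)) y⁻¹).1 (inv_mem hy)
      have h3 := hf'coc (g * y⁻¹ * g⁻¹) g
      rw [hf'Q _ h2, map_zero, zero_add] at h3
      have h4 : g * y⁻¹ * g⁻¹ * g = g * y⁻¹ := by group
      rw [h4] at h3
      rw [← h1, h3]
    have hfA : ∀ g ∈ A, f g = v - D.ρ g⁻¹ v := fun g hg => sub_eq_zero.1 (hf'A g hg)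
    have hyA : a * x * a⁻¹ ∈ A := mul_mem (mul_mem ha hxA) (inv_mem ha)
    have hvx : D.ρ x v = v := by
      have h1 := hfA x hxA
      rw [hf1 x (hxK u)] at h1
      have h2 : v = D.ρ x⁻¹ v := sub_eq_zero.1 h1.symm
      nth_rw 1 [h2]
      rw [← Module.End.mul_apply, ← map_mul, mul_inv_cancel, map_one]; rfl
    have hvy : D.ρ (a * x * a⁻¹) (D.π u + v) = D.π u + v := by
      set y := a * x * a⁻¹ with hy
      have h1 := hfA y hyA
      have h2 : y⁻¹ * (u : G) * y⁻¹⁻¹ ∈ N := hNn.conj_mem _ u.2 y⁻¹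
      have h3 := hf y (⟨y⁻¹ * (u : G) * y⁻¹⁻¹, h2⟩ * u⁻¹) (by
        have e : y * ((⟨y⁻¹ * (u : G) * y⁻¹⁻¹, h2⟩ * u⁻¹ : N) : G) = ((u : G) * a) * x * ((u : G) * a)⁻¹ := by
          show y * ((y⁻¹ * (u : G) * y⁻¹⁻¹) * (u : G)⁻¹) = _
          rw [hy]; group
        rw [e]
        exact hyK u)
      rw [D.map_mul, hπinv] at h3
      have h4 : D.π ⟨y⁻¹ * (u : G) * y⁻¹⁻¹, h2⟩ = D.ρ y⁻¹ (D.π u) := (D.apply y⁻¹ u).symm
      rw [h4, h1] at h3
      -- v - ρ y⁻¹ v = ρ y⁻¹ (π u) + - π u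
      have h5 : D.ρ y⁻¹ (D.π u + v) = D.π u + v := by
        rw [map_add]
        have : D.ρ y⁻¹ (D.π u) = v - D.ρ y⁻¹ v + D.π u := by rw [h3]; abel
        rw [this]; abel
      nth_rw 1 [← h5]
      rw [← Module.End.mul_apply, ← map_mul, mul_inv_cancel, map_one]; rfl
    refine ⟨-v, D.π u + v, by abel, ?_, hvy⟩
    rw [map_neg, hvx]
  -- conclusion
  let ρ' : A →* Module.End (ZMod r) V := D.ρ.comp A.subtype
  have hρ' : ∀ g : A, ρ' g = D.ρ (g : G) := fun g => rfl
  refine mod_case hp3 ρ' (x := ⟨x, hxA⟩) (a := ⟨a, ha⟩) (Subtype.ext hx) ?_ ?_ ?_ ?_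
  · apply map_injective A.subtype_injective
    rw [Subgroup.map_sup, MonoidHom.map_zpowers, MonoidHom.map_zpowers, ← MonoidHom.range_eq_map, A.range_subtype]
    exact hA.symm
  · intro h
    obtain ⟨v, hv⟩ := exists_ne (0 : V)
    apply hv
    apply hCQ
    intro y hy
    have : ρ' ⟨y, hQA hy⟩ = 1 := by rw [h]; rfl
    rw [hρ'] at this
    show D.ρ y v = v
    rw [this]; rfl
  · intro W hW
    exact hirr W (fun g hg w hw => hW ⟨g, hg⟩ w hw)
  · exact hprod

end Cfsg.Agent.Lib.H12Two
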