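import Cfsg.Agent.Lib.H12Two2
import Cfsg.Agent.Lib.HHMin
import Cfsg.Agent.Lib.PCoreTools
import Cfsg.Agent.Lib.SubgroupTools

/-! Maximal solvable subgroups generated by two conjugates of a subgroup of prime order `p > 3`. -/

set_option autoImplicit false
set_option maxHeartbeats 800000

namespace Cfsg.Agent.Lib.H12Two

open Module H12Fix FratRep Subgroup
open scoped commutatorElement

universe u

variable {G : Type u} [Group G] [Finite G]

theorem isSolvable_sup {X Y : Subgroup G} (h1 : Group.IsSolvable X) (h2 : Group.IsSolvable Y)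
    (hn : Y ≤ normalizer (X : Set G)) : Group.IsSolvable ↥(X ⊔ Y) := by
  have hXn : (X.subgroupOf (X ⊔ Y)).Normal := by
    apply normal_subgroupOf_of_le_normalizer
    exact sup_le le_normalizer hn
  have h3 : Group.IsSolvable ↥(X.subgroupOf (X ⊔ Y)) :=
    Group.isSolvable_of_isSolvable_injective
      (f := (Subgroup.subgroupOfEquivOfLe (le_sup_left : X ≤ X ⊔ Y)).toMonoidHom)
      (Subgroup.subgroupOfEquivOfLe (le_sup_left : X ≤ X ⊔ Y)).injective
  have h4 : Group.IsSolvable (↥(X ⊔ Y) ⧸ X.subgroupOf (X ⊔ Y)) := by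
    have hsurj : Function.Surjective
        ((QuotientGroup.mk' (X.subgroupOf (X ⊔ Y))).comp
          (Subgroup.inclusion (le_sup_right : Y ≤ X ⊔ Y))) := by
      intro q
      obtain ⟨z, rfl⟩ := QuotientGroup.mk'_surjective _ q
      have hz := z.2
      rw [SubgroupTools.mem_sup_of_le_normalizer hn] at hz
      obtain ⟨x, hx, y, hy, hxy⟩ := hz
      refine ⟨⟨y, hy⟩, ?_⟩
      simp only [MonoidHom.comp_apply, QuotientGroup.mk'_apply]
      rw [QuotientGroup.eq, mem_subgroupOf]
      have h5 : ((((Subgroup.inclusion (le_sup_right : Y ≤ X ⊔ Y)) ⟨y, hy⟩)⁻¹ * z :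
          ↥(X ⊔ Y)) : G) = y⁻¹ * x * y := by
        rw [Subgroup.coe_mul, ← hxy]
        simp [mul_assoc]
      rw [h5]
      have h6 := (mem_normalizer_iff.mp (inv_mem (hn hy)) x).mp hx
      simpa using h6
    exact Group.isSolvable_of_surjective hsurj
  exact Group.isSolvable_of_ker_le_range (X.subgroupOf (X ⊔ Y)).subtype
    (QuotientGroup.mk' (X.subgroupOf (X ⊔ Y))) (by
      rw [QuotientGroup.ker_mk', range_subtype])


theorem inf_eq_bot_of_pgroups {q r : ℕ} [hq : Fact q.Prime] [hr : Fact r.Prime] (hqr : q ≠ r) {Q R : Subgroup G}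
    (hQ : IsPGroup q Q) (hR : IsPGroup r R) : Q ⊓ R = ⊥ := by
  rw [← disjoint_iff]
  exact IsPGroup.disjoint_of_ne q r hqr Q R hQ hR

theorem commute_of_normalize {q r : ℕ} [hq : Fact q.Prime] [hr : Fact r.Prime] (hqr : q ≠ r) {Q R : Subgroup G}
    (hQ : IsPGroup q Q) (hR : IsPGroup r R) (h1 : Q ≤ normalizer (R : Set G)) (h2 : R ≤ normalizer (Q : Set G)) :
    Q ≤ centralizer (R : Set G) := by
  intro y hy
  rw [mem_centralizer_iff]
  intro z hz
  have e1 : z * y * z⁻¹ * y⁻¹ ∈ Q := mul_mem (((mem_normalizer_iff.1 (h2 hz)) y).1 hy) (inv_mem hy)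
  have e2 : z * y * z⁻¹ * y⁻¹ ∈ R := by
    have h3 : y * z⁻¹ * y⁻¹ ∈ R := ((mem_normalizer_iff.1 (h1 hy)) z⁻¹).1 (inv_mem hz)
    have e : z * y * z⁻¹ * y⁻¹ = z * (y * z⁻¹ * y⁻¹) := by group
    rw [e]; exact mul_mem hz h3
  have h4 : z * y * z⁻¹ * y⁻¹ ∈ Q ⊓ R := ⟨e1, e2⟩
  rw [inf_eq_bot_of_pgroups hqr hQ hR, mem_bot, mul_inv_eq_one, mul_inv_eq_iff_eq_mul] at h4
  exact h4

theorem zpowers_subgroupOf {B : Subgroup G} {x : G} (hx : x ∈ B) : (zpowers x).subgroupOf B = zpowers (⟨x, hx⟩ : B) := by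
  apply map_injective B.subtype_injective
  rw [subgroupOf_map_subtype, MonoidHom.map_zpowers]
  exact inf_eq_left.2 (by rw [zpowers_le]; exact hx)

theorem core {p q r : ℕ} [hp : Fact p.Prime] [hq : Fact q.Prime] [hr : Fact r.Prime]
    (hp3 : 3 < p) (P A : Subgroup G) (hPc : Nat.card P = p) (hAs : Group.IsSolvable A) {a : G} (ha : a ∈ A)
    (hA : A = P ⊔ P.map (MulAut.conj a).toMonoidHom)
    (hmax : ∀ B : Subgroup G, A ≤ B → Group.IsSolvable ↥B → (∃ b ∈ B, B = P ⊔ P.map (MulAut.conj b).toMonoidHom) → B = A)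
    (Q R : Subgroup G) (hQA : Q ≤ A) (hAQ : A ≤ normalizer (Q : Set G)) (hQ : IsPGroup q Q) (hR : IsPGroup r R)
    (hAR : A ≤ normalizer (R : Set G)) (hqr : q ≠ r) : Q ≤ centralizer (R : Set G) := by
  classical
  by_contra hcon
  have hQr : (Nat.card Q).Coprime r := by
    obtain ⟨n, hn⟩ := IsPGroup.iff_card.1 hQ
    rw [hn]
    exact Nat.Coprime.pow_left n ((Nat.coprime_primes hq.out hr.out).2 hqr)
  obtain ⟨U, hUR, hAU, hQU, hUQ, hmin, -⟩ := HHMin.exists_minimal2 R A Q hR hQr hQA hAQ hAR hcon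
  -- generator of P
  have hPnt : Nontrivial P := by
    have : 1 < Nat.card P := by omega
    exact Finite.one_lt_card_iff_nontrivial.1 this
  obtain ⟨x0, hx0⟩ := exists_ne (1 : P)
  set x : G := (x0 : G) with hxdef
  have hxP : zpowers x = P := by
    have h1 : zpowers x0 = ⊤ := by
      rw [eq_top_iff]
      intro y _
      exact mem_zpowers_of_prime_card hPc hx0
    have h2 := congrArg (Subgroup.map P.subtype) h1
    rw [MonoidHom.map_zpowers, ← MonoidHom.range_eq_map, P.range_subtype] at h2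
    exact h2
  have hxp : x ^ p = 1 := by
    have : x0 ^ p = 1 := by rw [← hPc]; exact pow_card_eq_one'
    exact congrArg Subtype.val this
  have hconj : ∀ b : G, P.map (MulAut.conj b).toMonoidHom = zpowers (b * x * b⁻¹) := by
    intro b
    rw [← hxP, MonoidHom.map_zpowers]; rfl
  have hPA : P ≤ A := by rw [hA]; exact le_sup_left
  have hxA : x ∈ A := hPA x0.2
  have hA' : A = zpowers x ⊔ zpowers (a * x * a⁻¹) := by rw [← hconj, hxP]; exact hA
  set B : Subgroup G := A ⊔ U with hB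
  have hAB : A ≤ B := le_sup_left
  have hUB : U ≤ B := le_sup_right
  have hUr : IsPGroup r U := hR.to_le hUR
  have hUs : Group.IsSolvable U := by
    have := hUr.isNilpotent
    infer_instance
  have hBs : Group.IsSolvable B := by
    rw [hB, sup_comm]
    exact isSolvable_sup hUs hAs hAU
  have hUA : ¬ U ≤ A := by
    intro h
    apply hQU
    exact commute_of_normalize hqr hQ hUr (hQA.trans hAU) (h.trans hAQ)
  have hBU : B ≤ normalizer (U : Set G) := sup_le hAU le_normalizer
  let N : Subgroup B := U.subgroupOf B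
  have hNn : N.Normal := normal_subgroupOf_of_le_normalizer hBU
  have hNr : IsPGroup r N := hUr.comap_subtype
  obtain ⟨V, iV1, iV2, iV3, ⟨D⟩⟩ := exists_data N hNn hNr
  have hmi := map_injective B.subtype_injective
  have hms : ∀ H : Subgroup G, H ≤ B → (H.subgroupOf B).map B.subtype = H := fun H hH => map_subgroupOf_eq_of_le hH
  have haB : a ∈ B := hAB ha
  have hxB : x ∈ B := hAB hxA
  refine core2 hp3 N (A.subgroupOf B) (Q.subgroupOf B) hNr D ?_ ?_ ?_ ?_ (x := ⟨x, hxB⟩) (a := ⟨a, haB⟩)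
    (Subtype.ext hxp) hxA ha ?_ ?_ ?_ ?_ ?_
  · rw [← subgroupOf_sup hAB hUB, subgroupOf_self]
  · exact fun y hy => hQA hy
  · intro g hg
    rw [mem_normalizer_iff]
    intro n
    exact (mem_normalizer_iff.1 (hAQ hg)) n
  · have : Nat.card (Q.subgroupOf B) = Nat.card Q := Nat.card_congr (subgroupOfEquivOfLe (hQA.trans hAB)).toEquiv
    rw [this]; exact hQr
  · have h1 : a * x * a⁻¹ ∈ B := mul_mem (mul_mem haB hxB) (inv_mem haB)
    have h2 := subgroupOf_sup (B := B) (A := zpowers x) (A' := zpowers (a * x * a⁻¹)) (by rw [zpowers_le]; exact hxB)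
      (by rw [zpowers_le]; exact h1)
    rw [← hA', zpowers_subgroupOf hxB, zpowers_subgroupOf h1] at h2
    exact h2
  · apply hmi
    rw [map_commutator, hms U hUB, hms Q (hQA.trans hAB)]
    exact hUQ
  · intro h
    apply hQU
    have : U = ⊥ := by rw [← hms U hUB]; show N.map B.subtype = ⊥; rw [h, Subgroup.map_bot]
    rw [this]
    intro y _
    rw [mem_centralizer_iff]
    intro z hz
    rw [SetLike.mem_coe, mem_bot] at hz
    rw [hz, one_mul, mul_one]
  · intro M hMN hMne hMA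
    have h1 : M.map B.subtype ≤ U := by
      rw [← hms U hUB]
      exact map_mono hMN
    have h2 : M.map B.subtype ≠ U := by
      intro h
      apply hMne
      apply hmi
      rw [h]
      exact (hms U hUB).symm
    have h3 := hmin (M.map B.subtype) h1 h2 (by
      intro g hg
      have hgB := hAB hg
      have h4 : (⟨g, hgB⟩ : B) ∈ normalizer (M : Set B) := hMA hg
      rw [mem_normalizer_iff] at h4 ⊢
      intro m
      constructor
      · rintro ⟨m, hm, rfl⟩
        exact ⟨_, (h4 m).1 hm, rfl⟩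
      · rintro ⟨m', hm', he⟩
        have he' : (m' : G) = g * m * g⁻¹ := he
        have hmB : m ∈ B := by
          have : m = g⁻¹ * (m' : G) * g := by rw [he']; group
          rw [this]
          exact mul_mem (mul_mem (inv_mem hgB) m'.2) hgB
        refine ⟨⟨m, hmB⟩, ?_, rfl⟩
        apply (h4 _).2
        have : (⟨g, hgB⟩ : B) * ⟨m, hmB⟩ * ⟨g, hgB⟩⁻¹ = m' := Subtype.ext he'.symm
        rw [this]; exact hm')
    intro y hy
    have h4 := mem_centralizer_iff.1 (h3 hy)
    rw [mem_centralizer_iff]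
    intro m hm
    apply Subtype.ext
    exact h4 m ⟨m, hm, rfl⟩
  · intro u hu h
    apply hUA
    have hub : (u : G) * a ∈ B := mul_mem u.2 haB
    have h1 : B = P ⊔ P.map (MulAut.conj ((u : G) * a)).toMonoidHom := by
      rw [hconj, ← hxP]
      have h2 := congrArg (Subgroup.map B.subtype) h
      rw [Subgroup.map_sup, MonoidHom.map_zpowers, MonoidHom.map_zpowers, ← MonoidHom.range_eq_map, B.range_subtype] at h2
      exact h2.symm
    have h2 := hmax B hAB hBs ⟨_, hub, h1⟩
    rw [← h2]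
    exact hUB

/-- the `q`-core of a subgroup, as a subgroup of the group -/
def Oq (q : ℕ) (X : Subgroup G) : Subgroup G := (Cfsg.pCore q X).map X.subtype

theorem Oq_le (q : ℕ) (X : Subgroup G) : Oq q X ≤ X := map_subtype_le _

theorem Oq_pgroup (q : ℕ) [Fact q.Prime] (X : Subgroup G) : IsPGroup q (Oq q X) :=
  (Fitting.isPGroup_pCore q).map _

theorem normalizer_Oq (q : ℕ) [Fact q.Prime] (X : Subgroup G) :
    normalizer (X : Set G) ≤ normalizer (Oq q X : Set G) :=
  PCoreTools.normalizer_le_of_characteristic inferInstance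

theorem fit_eq (X : Subgroup G) : (Cfsg.fittingSubgroup X).map X.subtype = ⨆ q : Nat.Primes, Oq (q : ℕ) X := by
  rw [Fitting.fittingSubgroup_eq_iSup_pCore, Subgroup.map_iSup]
  rfl

theorem nil_eq (X : Subgroup G) (hX : Group.IsNilpotent X) : X = ⨆ q : Nat.Primes, Oq (q : ℕ) X := by
  rw [← fit_eq]
  have : Cfsg.fittingSubgroup X = ⊤ := by
    rw [eq_top_iff]
    apply Fitting.le_fittingSubgroup inferInstance
    exact (Group.isNilpotent_congr (topEquiv (G := X))).2 hX
  rw [this, ← MonoidHom.range_eq_map, X.range_subtype]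

theorem main {p : ℕ} [hp : Fact p.Prime] (hp3 : 3 < p) (P A : Subgroup G) (hPc : Nat.card P = p)
    (hAs : Group.IsSolvable A) {a : G} (ha : a ∈ A)
    (hA : A = P ⊔ P.map (MulAut.conj a).toMonoidHom)
    (hmax : ∀ B : Subgroup G, A ≤ B → Group.IsSolvable ↥B → (∃ b ∈ B, B = P ⊔ P.map (MulAut.conj b).toMonoidHom) → B = A)
    (V : Subgroup G) (hV : Group.IsNilpotent ↥V) (hAV : A ≤ Subgroup.normalizer (V : Set G)) :
    Group.IsNilpotent ↥((Cfsg.fittingSubgroup ↥A).map A.subtype ⊔ V) := by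
  classical
  set H := (Cfsg.fittingSubgroup ↥A).map A.subtype ⊔ V with hH
  let S : Nat.Primes → Subgroup G := fun q => Oq (q : ℕ) A ⊔ Oq (q : ℕ) V
  have hHS : H = ⨆ q, S q := by
    rw [hH, fit_eq, nil_eq V hV]
    have : ∀ q : Nat.Primes, Oq (q : ℕ) (⨆ q : Nat.Primes, Oq (q : ℕ) V) = Oq (q : ℕ) V := by
      intro q
      rw [← nil_eq V hV]
    simp only [S]
    rw [← nil_eq V hV, iSup_sup_eq, ← nil_eq V hV]
  have hfact : ∀ q : Nat.Primes, Fact ((q : ℕ)).Prime := fun q => ⟨q.2⟩
  have hAO : ∀ q : Nat.Primes, A ≤ normalizer (Oq (q : ℕ) A : Set G) := fun q =>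
    le_normalizer.trans (normalizer_Oq _ A)
  have hAVO : ∀ q : Nat.Primes, A ≤ normalizer (Oq (q : ℕ) V : Set G) := fun q =>
    hAV.trans (normalizer_Oq _ V)
  have hVO : ∀ q : Nat.Primes, V ≤ normalizer (Oq (q : ℕ) V : Set G) := fun q =>
    le_normalizer.trans (normalizer_Oq _ V)
  have h1 : ∀ q r : Nat.Primes, q ≠ r → Oq (q : ℕ) A ≤ centralizer (Oq (r : ℕ) A : Set G) := by
    intro q r hqr
    exact commute_of_normalize (fun h => hqr (Subtype.ext h)) (Oq_pgroup _ A) (Oq_pgroup _ A)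
      ((Oq_le _ A).trans (hAO r)) ((Oq_le _ A).trans (hAO q))
  have h2 : ∀ q r : Nat.Primes, q ≠ r → Oq (q : ℕ) V ≤ centralizer (Oq (r : ℕ) V : Set G) := by
    intro q r hqr
    exact commute_of_normalize (fun h => hqr (Subtype.ext h)) (Oq_pgroup _ V) (Oq_pgroup _ V)
      ((Oq_le _ V).trans (hVO r)) ((Oq_le _ V).trans (hVO q))
  have h3 : ∀ q r : Nat.Primes, q ≠ r → Oq (q : ℕ) A ≤ centralizer (Oq (r : ℕ) V : Set G) := by
    intro q r hqr
    exact core hp3 P A hPc hAs ha hA hmax _ _ (Oq_le _ A) (hAO q) (Oq_pgroup _ A) (Oq_pgroup _ V) (hAVO r)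
      (fun h => hqr (Subtype.ext h))
  have h4 : ∀ q r : Nat.Primes, q ≠ r → Oq (q : ℕ) V ≤ centralizer (Oq (r : ℕ) A : Set G) := by
    intro q r hqr
    rw [le_centralizer_iff]
    exact h3 r q (Ne.symm hqr)
  have h5 : ∀ q r : Nat.Primes, q ≠ r → S q ≤ centralizer (S r : Set G) := by
    intro q r hqr
    rw [le_centralizer_iff]
    refine sup_le ?_ ?_
    · rw [le_centralizer_iff]
      exact sup_le (h1 q r hqr) (h4 q r hqr)
    · rw [le_centralizer_iff]
      exact sup_le (h3 q r hqr) (h2 q r hqr)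
  have hSn : ∀ q, H ≤ normalizer (S q : Set G) := by
    intro q
    rw [hHS]
    apply iSup_le
    intro r
    by_cases hqr : r = q
    · rw [hqr]; exact le_normalizer
    · exact (h5 r q hqr).trans (centralizer_le_normalizer _)
  have hSp : ∀ q : Nat.Primes, IsPGroup (q : ℕ) (S q) := by
    intro q
    exact IsPGroup.to_sup_of_normal_right' (Oq_pgroup _ A) (Oq_pgroup _ V) ((Oq_le _ A).trans (hAVO q))
  have htop : Cfsg.fittingSubgroup H = ⊤ := by
    apply map_injective H.subtype_injective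
    rw [← MonoidHom.range_eq_map, H.range_subtype]
    apply le_antisymm (map_subtype_le _)
    conv_lhs => rw [hHS]
    apply iSup_le
    intro q
    have hSH : S q ≤ H := by rw [hHS]; exact le_iSup S q
    rw [← map_subgroupOf_eq_of_le hSH]
    apply map_mono
    apply Fitting.le_fittingSubgroup (normal_subgroupOf_of_le_normalizer (hSn q))
    have := hfact q
    have h6 : IsPGroup (q : ℕ) ((S q).subgroupOf H) := (hSp q).comap_subtype
    exact h6.isNilpotent
  have h7 := Fitting.isNilpotent_fittingSubgroup (G := H)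
  rw [htop] at h7
  exact (Group.isNilpotent_congr (topEquiv (G := H))).1 h7

end Cfsg.Agent.Lib.H12Two
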