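import Cfsg.Agent.Lib.H15Odd
import Cfsg.Agent.Lib.H15Deg2p
import Cfsg.Agent.Lib.Codegree

set_option autoImplicit false
set_option linter.all false

/-!
# Permutation groups of prime degree with one character of degree `p`: the configuration
-/

namespace Cfsg.Agent.Lib.H15Bs

open Cfsg Cfsg.Agent.Lib.BlockRing Cfsg.Agent.Lib.BlockGA Cfsg.Agent.Lib.BlockIdem
open Cfsg.Agent.Lib.DefOneLoc Cfsg.Agent.Lib.DefOneOrd Cfsg.Agent.Lib.CharBasic Cfsg.Agent.Lib.DefOneGram
open Cfsg.Agent.Lib.DefOne Cfsg.Agent.Lib.BlockThird Cfsg.Agent.Lib.DefOnePrin Cfsg.Agent.Lib.BRB0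
open Cfsg.Agent.Lib.BRPerm Cfsg.Agent.Lib.H15TateG Cfsg.Agent.Lib.H15Gs Cfsg.Agent.Lib.BRCore
open scoped ComplexConjugate

universe u v

variable {G : Type u} [Group G] [Fintype G] {p : ℕ} [hp : Fact p.Prime]
variable {α : Type v} [MulAction G α] [Fintype α] [FaithfulSMul G α]

theorem card_dvd (hα : Nat.card α = p) : Nat.card G ∣ p.factorial := by
  classical
  have h1 := Subgroup.card_dvd_of_injective (MulAction.toPermHom G α) MulAction.toPerm_injective
  rwa [Nat.card_eq_fintype_card (α := Equiv.Perm α), Fintype.card_perm, ← Nat.card_eq_fintype_card, hα] at h1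

omit [FaithfulSMul G α] in
theorem p_dvd (hα : Nat.card α = p) [MulAction.IsPretransitive G α] : p ∣ Nat.card G := by
  obtain ⟨a⟩ : Nonempty α := by
    have : 0 < Nat.card α := by rw [hα]; exact hp.out.pos
    exact (Nat.card_pos_iff.1 this).1
  have h1 := MulAction.index_stabilizer_of_transitive G a
  rw [hα] at h1
  rw [← h1]
  exact Subgroup.index_dvd_card _

theorem card_syl (hα : Nat.card α = p) [MulAction.IsPretransitive G α] (P : Sylow p G) : Nat.card P = p := by
  obtain ⟨k, hk⟩ := IsPGroup.iff_card.1 P.isPGroup'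
  have hk1 : k ≠ 0 := by
    intro h
    rw [h, pow_zero] at hk
    exact P.ne_bot_of_dvd_card (p_dvd hα) (Subgroup.card_eq_one.1 hk)
  have hk2 : k < 2 := by
    by_contra hcon
    have h1 : p ^ 2 ∣ p.factorial := by
      refine (pow_dvd_pow p (not_lt.1 hcon)).trans ?_
      rw [← hk]
      exact (Subgroup.card_subgroup_dvd_card _).trans (card_dvd (G := G) hα)
    have h3 : p.factorial = p * (p - 1).factorial := (Nat.mul_factorial_pred hp.out.ne_zero).symm
    rw [h3, pow_two] at h1
    have h4 := Nat.dvd_of_mul_dvd_mul_left hp.out.pos h1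
    rw [hp.out.dvd_factorial] at h4
    have := hp.out.pos
    omega
  have : k = 1 := by omega
  rw [hk, this, pow_one]

omit [Fintype α] [FaithfulSMul G α] hp in
theorem sq_lt {χ : IrrCharacter G} (h : charDegree (χ : G → ℂ) = p) (hp1 : p ≠ 1) : p ^ 2 + 1 ≤ Nat.card G := by
  classical
  have h1 := Codegree.sum_charDegree_sq (G := G)
  have hne : triv G ≠ χ := by
    intro h2
    rw [← h2, deg_triv] at h
    exact hp1 h.symm
  have h2 : ∑ ψ ∈ ({triv G, χ} : Finset (IrrCharacter G)), charDegree (ψ : G → ℂ) ^ 2 ≤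
      ∑ ψ : IrrCharacter G, charDegree (ψ : G → ℂ) ^ 2 := Finset.sum_le_sum_of_subset (Finset.subset_univ _)
  rw [Finset.sum_pair hne, deg_triv, h, h1] at h2
  omega

theorem five_le (hα : Nat.card α = p) {χ : IrrCharacter G} (h : charDegree (χ : G → ℂ) = p) : 5 ≤ p := by
  have h1 := sq_lt h hp.out.one_lt.ne'
  have h2 := Nat.le_of_dvd (Nat.factorial_pos _) (card_dvd (G := G) hα)
  have h3 := hp.out.two_le
  by_contra hcon
  have h4 : p = 2 ∨ p = 3 ∨ p = 4 := by omega
  rcases h4 with h4 | h4 | h4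
  · rw [h4] at h1 h2
    have : Nat.factorial 2 = 2 := rfl
    omega
  · rw [h4] at h1 h2
    have : Nat.factorial 3 = 6 := rfl
    omega
  · have := hp.out
    rw [h4] at this
    exact absurd this (by norm_num)

theorem exists_Bs (hα : Nat.card α = p) [MulAction.IsPretransitive G α]
    (huniq : ∃! χ : IrrCharacter G, charDegree (χ : G → ℂ) = p) (P : Sylow p G) (E : Subgroup G)
    (hPE : (P : Subgroup G) ⊔ E = Subgroup.normalizer ((P : Subgroup G) : Set G))
    (hPE' : (P : Subgroup G) ⊓ E = ⊥) (hNE : Nat.card (Subgroup.normalizer (E : Set G)) = 2 * Nat.card E)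
    (hTI : ∀ g : G, g ∉ Subgroup.normalizer (E : Set G) → E ⊓ E.map (MulAut.conj g).toMonoidHom = ⊥) :
    ∃ (D : Loc p (P : Subgroup G) (Subgroup.normalizer ((P : Subgroup G) : Set G))
      (Subgroup.centralizer ((P : Subgroup G) : Set G)))
      (hC : Fintype (Subgroup.centralizer ((P : Subgroup G) : Set G))) (ζ : G → ℂ), Nonempty (B0 D) ∧
      Bs D E (Subgroup.normalizer (E : Set G)) ζ := by
  have hPc := card_syl hα P
  obtain ⟨D, hCf, ⟨B⟩⟩ := exists_B0 P hPc
  obtain ⟨χ, hχ, hχu⟩ := huniq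
  have hχ' : charDegree (χ : G → ℂ) = p := hχ
  have h5 := five_le hα hχ'
  refine ⟨D, hCf, (χ : G → ℂ), ⟨B⟩, ?_⟩
  refine
    { hP := hPc
      syl := ⟨P, rfl⟩
      NN := rfl
      hCP := cent_le (G := G) hα hPc
      sup := hPE
      inf := hPE'
      MM := rfl
      cardM := hNE
      ti := ?_
      E1 := ?_
      h5 := h5
      irr := χ.2
      one := ?_
      uniq := ?_ }
  · intro g h hh h1 hg
    by_contra hcon
    have h2 := hTI g hcon
    have h3 : h ∈ E ⊓ E.map (MulAut.conj g).toMonoidHom := by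
      refine ⟨hh, Subgroup.mem_map.2 ⟨g⁻¹ * h * g, hg, ?_⟩⟩
      change g * (g⁻¹ * h * g) * g⁻¹ = h
      group
    rw [h2] at h3
    exact h1 h3
  · rintro rfl
    have h1 : Subgroup.normalizer (((⊥ : Subgroup G) : Subgroup G) : Set G) = ⊤ :=
      Subgroup.normalizer_eq_top_iff.2 inferInstance
    rw [h1, Subgroup.card_top, Subgroup.card_bot] at hNE
    have h2 := sq_lt hχ' hp.out.one_lt.ne'
    rw [hNE] at h2
    nlinarith
  · rw [← BlockDeg.charDegree_cast_irr χ, hχ']
  · intro ψ hψ hψ1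
    have h1 : charDegree ψ = p := by
      have := BlockDeg.charDegree_cast_irr (⟨ψ, hψ⟩ : IrrCharacter G)
      change ((charDegree ψ : ℕ) : ℂ) = ψ 1 at this
      rw [hψ1] at this
      exact_mod_cast this
    exact congrArg Subtype.val (hχu ⟨ψ, hψ⟩ h1)

section faith

variable {P N C E M : Subgroup G} {D : Loc p P N C} {ζ : G → ℂ} (H : Bs D E M ζ)

include H in
theorem faith (hα : Nat.card α = p) [MulAction.IsPretransitive G α] (g : G) (hg : ζ g = p) : g = 1 := by
  obtain ⟨K, hK, hK'⟩ := FrobThm.exists_charKer H.irr.isCharacter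
  haveI := hK
  haveI : MulAction.IsPreprimitive G α := MulAction.IsPreprimitive.of_prime_card (by rw [hα]; exact hp.out)
  by_contra hg1
  have hK1 : K ≠ ⊥ := by
    intro h
    have h1 : g ∈ K := (hK' g).2 (by rw [hg, H.one])
    rw [h] at h1
    exact hg1 h1
  have h2 : p ∣ Nat.card K := by
    rw [← hα]; exact H15Deg2p.trans_of_normal (G := G) (α := α) hK1
  obtain ⟨z, hz⟩ := exists_prime_orderOf_dvd_card' (G := K) p h2
  have h3 := (hK' z).1 z.2
  have h4 : p ∣ orderOf (z : G) := by rw [Subgroup.orderOf_coe, hz]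
  rw [H.sing h4, H.one] at h3
  have h5 : (p : ℂ) ≠ 0 := by exact_mod_cast hp.out.ne_zero
  exact h5 h3.symm

end faith

end Cfsg.Agent.Lib.H15Bs
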