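import Cfsg.Agent.Lib.H15Bs
import Cfsg.Agent.Lib.Sharply2
import Cfsg.Agent.Lib.SharpMult
import Cfsg.Agent.Lib.ClSmall
import Cfsg.Agent.S0676

set_option autoImplicit false
set_option linter.all false

/-!
# The case `|E|` even
-/

namespace Cfsg.Agent.Lib.H15Even

open Cfsg Cfsg.Agent.Lib.BlockRing Cfsg.Agent.Lib.BlockGA Cfsg.Agent.Lib.BlockIdem
open Cfsg.Agent.Lib.DefOneLoc Cfsg.Agent.Lib.DefOneOrd Cfsg.Agent.Lib.CharBasic Cfsg.Agent.Lib.DefOneGram
open Cfsg.Agent.Lib.DefOne Cfsg.Agent.Lib.BlockThird Cfsg.Agent.Lib.DefOnePrin Cfsg.Agent.Lib.BRB0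
open Cfsg.Agent.Lib.BRPerm Cfsg.Agent.Lib.H15TateG Cfsg.Agent.Lib.H15Gs Cfsg.Agent.Lib.BRCore Cfsg.Agent.Lib.H15Bs
open MulAction
open scoped ComplexConjugate

universe u v

variable {G : Type u} [Group G] [Fintype G] {p : ℕ} [hp : Fact p.Prime]
variable {α : Type v} [MulAction G α] [Fintype α] [FaithfulSMul G α]
variable {P N C E M : Subgroup G} {D : Loc p P N C} {ζ : G → ℂ} (H : Bs D E M ζ)

section pre

include H

/-- nontrivial elements of `E` fix at most one point -/
theorem fix_one (hα : Nat.card α = p) {g : G} (hg : g ∈ E) (hg1 : g ≠ 1) {a b : α} (ha : g • a = a) (hb : g • b = b) :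
    a = b := by
  obtain ⟨y, hy, hyab⟩ := P_trans hα H.hP a b
  by_contra hne
  have hy1 : y ≠ 1 := by rintro rfl; rw [one_smul] at hyab; exact hne hyab
  have h1 : g * y * g⁻¹ ∈ P := D.norm g (H.EN hg) y hy
  have h2 : g * y * g⁻¹ * y⁻¹ ∈ P := P.mul_mem h1 (P.inv_mem hy)
  have hya : y⁻¹ • b = a := by rw [← hyab, inv_smul_smul]
  have hga : g⁻¹ • a = a := by rw [inv_smul_eq_iff, ha]
  have h3 : (g * y * g⁻¹ * y⁻¹) • b = b := by
    rw [mul_smul, mul_smul, mul_smul, hya, hga, hyab, hb]
  have h4 : g * y * g⁻¹ * y⁻¹ = 1 := by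
    by_contra h
    exact free_of_order hα (order_of_mem H.hP h2 h) b h3
  have h5 : g * y = y * g := by
    rw [mul_inv_eq_one, mul_inv_eq_iff_eq_mul] at h4
    exact h4
  exact hg1 (H.dec' g hg (H.cent y hy hy1 g h5))

theorem p_odd : Odd p := hp.out.odd_of_ne_two (by have := H.h5; omega)

theorem exists_inv (heven : Even (Nat.card E)) : ∃ z ∈ E, orderOf z = 2 := by
  haveI : Fact (Nat.Prime 2) := ⟨Nat.prime_two⟩
  obtain ⟨z, hz⟩ := exists_prime_orderOf_dvd_card' (G := E) 2 heven.two_dvd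
  exact ⟨z, z.2, by rw [Subgroup.orderOf_coe, hz]⟩

theorem exists_fix (hα : Nat.card α = p) {z : G} (hz : orderOf z = 2) : ∃ w : α, z • w = w := by
  haveI : Fact (Nat.Prime 2) := ⟨Nat.prime_two⟩
  have h1 : IsPGroup 2 (Subgroup.zpowers z) := by
    rw [IsPGroup.iff_card]
    exact ⟨1, by rw [Nat.card_zpowers, hz, pow_one]⟩
  have h2 := h1.card_modEq_card_fixedPoints α
  rw [hα] at h2
  obtain ⟨k, hk⟩ := p_odd H
  have h3 : Nat.card (fixedPoints (Subgroup.zpowers z) α) ≠ 0 := by
    intro h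
    rw [h, hk] at h2
    unfold Nat.ModEq at h2
    omega
  obtain ⟨⟨w, hw⟩⟩ := (Nat.card_pos_iff.1 (Nat.pos_of_ne_zero h3)).1
  exact ⟨w, hw ⟨z, Subgroup.mem_zpowers z⟩⟩

theorem E_fix (hα : Nat.card α = p) {z : G} (hzE : z ∈ E) (hz1 : z ≠ 1) {w : α} (hw : z • w = w) (g : G) (hg : g ∈ E) :
    g • w = w := by
  apply fix_one H hα hzE hz1 _ hw
  rw [← mul_smul, H.comm z hzE g hg, mul_smul, hw]

/-- uniqueness of the involution -/
theorem uniq_inv {z x : G} (hz : z ∈ E) (hz1 : z ≠ 1) (hzz : z * z = 1) (hx : x ∈ E) (hx1 : x ≠ 1) (hxx : x * x = 1) :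
    x = z := by
  have key : ∀ y ∈ E, y ≠ 1 → y * y = 1 → ∀ hy : y ∈ N, κu D ⟨y, hy⟩ = -1 := by
    intro y hyE hy1 hyy hy
    have h1 : κu D ⟨y, hy⟩ * κu D ⟨y, hy⟩ = 1 := by
      rw [← map_mul]
      have : (⟨y, hy⟩ * ⟨y, hy⟩ : N) = 1 := Subtype.ext hyy
      rw [this, map_one]
    rcases mul_self_eq_one_iff.1 (congrArg Units.val h1) with h2 | h2
    · exfalso
      have h3 : κu D ⟨y, hy⟩ = 1 := Units.ext h2
      rw [BRInd.kappa_one_iff] at h3
      exact hy1 (H.dec' y hyE (H.hCP h3))
    · apply Units.ext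
      rw [h2]; rfl
  have h1 := key z hz hz1 hzz (H.EN hz)
  have h2 := key x hx hx1 hxx (H.EN hx)
  have h3 : κu D (⟨x, H.EN hx⟩ * ⟨z, H.EN hz⟩⁻¹) = 1 := by
    rw [map_mul, map_inv, h1, h2]; simp
  rw [BRInd.kappa_one_iff] at h3
  have h4 := H.dec' _ (E.mul_mem hx (E.inv_mem hz)) (H.hCP h3)
  exact mul_inv_eq_one.1 h4

theorem cent_eq {z : G} (hz : z ∈ E) (hz1 : z ≠ 1) (hzz : z * z = 1) (g : G) : g * z = z * g ↔ g ∈ M := by
  constructor
  · intro h
    apply H.ti g z hz hz1
    have : g⁻¹ * z * g = z := by rw [mul_assoc, ← h]; group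
    rw [this]; exact hz
  · intro hg
    have h1 := H15Odd.norm_E H g hg z hz
    have h2 : g⁻¹ * z * g = z := by
      apply uniq_inv H hz hz1 hzz h1
      · intro h
        apply hz1
        have : z = g * (g⁻¹ * z * g) * g⁻¹ := by group
        rw [this, h]; group
      · calc g⁻¹ * z * g * (g⁻¹ * z * g) = g⁻¹ * (z * z) * g := by group
          _ = 1 := by rw [hzz]; group
    have h3 : g * (g⁻¹ * z * g) = g * z := by rw [h2]
    rw [← h3]; group

end pre

section count

open Classical in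
/-- the set of elements swapping two points -/
noncomputable def Q (x y : α) : Finset G := Finset.univ.filter fun g => g • x = y ∧ g • y = x

open Classical in
/-- conjugates of `z` taking `x` to `y` -/
noncomputable def Fs (z : G) (x y : α) : Finset G := Finset.univ.filter fun g => IsConj z g ∧ g • x = y

open Classical in
theorem Fs_sub {z : G} (hzz : z * z = 1) (x y : α) : Fs z x y ⊆ Q x y := by
  intro g hg
  rw [Fs, Finset.mem_filter] at hg
  rw [Q, Finset.mem_filter]
  refine ⟨hg.1, hg.2.2, ?_⟩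
  obtain ⟨c, hc⟩ := isConj_iff.1 hg.2.1
  rw [← hg.2.2, ← mul_smul, ← hc]
  have : c * z * c⁻¹ * (c * z * c⁻¹) = c * (z * z) * c⁻¹ := by group
  rw [this, hzz, mul_one, mul_inv_cancel, one_smul]

open Classical in
theorem count1 (h2 : ∀ a b c d : α, a ≠ b → c ≠ d → ∃ g : G, g • a = c ∧ g • b = d) {x y : α} (hxy : x ≠ y) (z : G) :
    (Finset.univ.filter fun g : G => z • (g • x) = g • y).card =
      (Finset.univ.filter fun u : α => z • u ≠ u).card * (Q (G := G) x y).card := by
  rw [Finset.card_eq_sum_card_fiberwise (f := fun g : G => g • x) (t := Finset.univ.filter fun u : α => z • u ≠ u)]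
  · rw [Finset.sum_const_nat (m := (Q (G := G) x y).card)]
    intro u hu
    rw [Finset.mem_filter] at hu
    obtain ⟨h, hh1, hh2⟩ := h2 x y u (z • u) hxy hu.2.symm
    obtain ⟨k, hk1, hk2⟩ := h2 x y y x hxy hxy.symm
    have hk3 : k⁻¹ • y = x := by rw [← hk1, inv_smul_smul]
    have hk4 : k⁻¹ • x = y := by rw [inv_smul_eq_iff, hk2]
    have hh3 : h⁻¹ • u = x := by rw [← hh1, inv_smul_smul]
    have hh4 : h⁻¹ • (z • u) = y := by rw [← hh2, inv_smul_smul]
    symm
    refine Finset.card_bij (fun g _ => h * k⁻¹ * g) ?_ ?_ ?_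
    · intro g hg
      rw [Q, Finset.mem_filter] at hg
      simp only [Finset.mem_filter, Finset.mem_univ, true_and]
      rw [mul_smul, mul_smul, hg.2.1, hk3, hh1, mul_smul, mul_smul, hg.2.2, hk4, hh2]
      exact ⟨rfl, rfl⟩
    · intro a _ b _ hab
      exact mul_left_cancel hab
    · intro g hg
      simp only [Finset.mem_filter, Finset.mem_univ, true_and] at hg
      refine ⟨k * h⁻¹ * g, ?_, by group⟩
      rw [Q, Finset.mem_filter]
      refine ⟨Finset.mem_univ _, ?_, ?_⟩
      · rw [mul_smul, mul_smul, hg.2, hh3, hk1]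
      · rw [mul_smul, mul_smul, ← hg.1, hg.2, hh4, hk2]
  · intro g hg
    simp only [Finset.coe_filter, Set.mem_setOf_eq, Finset.mem_univ, true_and] at hg ⊢
    rw [hg]
    intro h
    exact hxy (smul_left_cancel g h).symm

open Classical in
theorem count2 {z : G} {x y : α} {M : Subgroup G} (hM : ∀ g : G, g * z = z * g ↔ g ∈ M) :
    (Finset.univ.filter fun g : G => z • (g • x) = g • y).card = (Fs z x y).card * Nat.card M := by
  rw [Finset.card_eq_sum_card_fiberwise (f := fun g : G => g⁻¹ * z * g) (t := Fs z x y)]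
  · rw [Finset.sum_const_nat (m := Nat.card M)]
    intro a ha
    rw [Fs, Finset.mem_filter] at ha
    obtain ⟨c, hc⟩ := isConj_iff.1 ha.2.1
    haveI : Fintype M := Fintype.ofFinite _
    rw [Nat.card_eq_fintype_card, ← Finset.card_univ]
    symm
    refine Finset.card_bij (fun m _ => (m : G) * c⁻¹) ?_ ?_ ?_
    · intro m _
      have hm := (hM m).2 m.2
      have h1 : ((m : G) * c⁻¹)⁻¹ * z * (m * c⁻¹) = a := by
        rw [← hc]
        calc ((m : G) * c⁻¹)⁻¹ * z * (m * c⁻¹) = c * (m : G)⁻¹ * (z * m) * c⁻¹ := by group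
          _ = _ := by rw [← hm]; group
      simp only [Finset.mem_filter, Finset.mem_univ, true_and]
      refine ⟨?_, h1⟩
      rw [← ha.2.2, ← h1]
      rw [← mul_smul, ← mul_smul]
      congr 1
      group
    · intro a _ b _ hab
      exact Subtype.ext (mul_right_cancel hab)
    · intro g hg
      simp only [Finset.mem_filter, Finset.mem_univ, true_and] at hg
      refine ⟨⟨g * c, (hM _).1 ?_⟩, Finset.mem_univ _, by simp⟩
      have h1 : g⁻¹ * z * g = c * z * c⁻¹ := by rw [hg.2, hc]
      calc g * c * z = g * (c * z * c⁻¹) * c := by group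
        _ = z * (g * c) := by rw [← h1]; group
  · intro g hg
    simp only [Finset.coe_filter, Set.mem_setOf_eq, Finset.mem_univ, true_and] at hg ⊢
    simp only [Fs, Finset.coe_filter, Set.mem_setOf_eq, Finset.mem_univ, true_and]
    refine ⟨isConj_iff.2 ⟨g⁻¹, by rw [inv_inv]⟩, ?_⟩
    rw [mul_smul, mul_smul, hg, inv_smul_smul]

end count

section cases

theorem three (h3 : IsMultiplyPretransitive G α 3) {a b c a' b' c' : α} (h1 : a ≠ b) (h2 : a ≠ c) (h4 : b ≠ c)
    (h1' : a' ≠ b') (h2' : a' ≠ c') (h4' : b' ≠ c') : ∃ g : G, g • a = a' ∧ g • b = b' ∧ g • c = c' := by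
  have e1 : Function.Injective ![a, b, c] := by
    intro i j hij
    fin_cases i <;> fin_cases j <;> simp_all
  have e2 : Function.Injective ![a', b', c'] := by
    intro i j hij
    fin_cases i <;> fin_cases j <;> simp_all
  obtain ⟨g, hg⟩ := (isMultiplyPretransitive_iff.mp h3) ⟨_, e1⟩ ⟨_, e2⟩
  exact ⟨g, DFunLike.congr_fun hg 0, DFunLike.congr_fun hg 1, DFunLike.congr_fun hg 2⟩

include H

theorem two_e (h2 : ∀ a b c d : α, a ≠ b → c ≠ d → ∃ g : G, g • a = c ∧ g • b = d) (hα : Nat.card α = p)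
    {z : G} (hzE : z ∈ E) (hz : orderOf z = 2) {x y : α} (hxy : x ≠ y) :
    (p - 1) * (Q (G := G) x y).card = 2 * Nat.card E * (Fs z x y).card := by
  classical
  have hz1 : z ≠ 1 := by rintro rfl; rw [orderOf_one] at hz; omega
  have hzz : z * z = 1 := by rw [← sq, ← hz, pow_orderOf_eq_one]
  have e1 := count1 h2 hxy z
  have e2 := count2 (x := x) (y := y) (cent_eq H hzE hz1 hzz)
  rw [e1, H.cardM] at e2
  obtain ⟨w, hw⟩ := exists_fix (α := α) H hα hz
  have e3 : (Finset.univ.filter fun u : α => z • u ≠ u) = Finset.univ.erase w := by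
    ext u
    simp only [Finset.mem_filter, Finset.mem_univ, true_and, Finset.mem_erase, and_true]
    constructor
    · rintro h rfl; exact h hw
    · intro h h'; exact h (fix_one H hα hzE hz1 h' hw)
  rw [e3, Finset.card_erase_of_mem (Finset.mem_univ _), Finset.card_univ, ← Nat.card_eq_fintype_card, hα] at e2
  rw [e2, mul_comm]

theorem Q_pos (h2 : ∀ a b c d : α, a ≠ b → c ≠ d → ∃ g : G, g • a = c ∧ g • b = d) {x y : α} (hxy : x ≠ y) :
    0 < (Q (G := G) x y).card := by
  classical
  obtain ⟨k, hk1, hk2⟩ := h2 x y y x hxy hxy.symm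
  rw [Finset.card_pos]
  exact ⟨k, by rw [Q, Finset.mem_filter]; exact ⟨Finset.mem_univ _, hk1, hk2⟩⟩

theorem two_cases (h2 : ∀ a b c d : α, a ≠ b → c ≠ d → ∃ g : G, g • a = c ∧ g • b = d) (hα : Nat.card α = p)
    {z : G} (hzE : z ∈ E) (hz : orderOf z = 2) : p - 1 = Nat.card E ∨
      (p - 1 = 2 * Nat.card E ∧ ∀ x y : α, x ≠ y → Fs z x y = Q x y) := by
  classical
  have hzz : z * z = 1 := by rw [← sq, ← hz, pow_orderOf_eq_one]
  have h5 := H.h5
  have hle : ∀ x y : α, (Fs z x y).card ≤ (Q (G := G) x y).card := fun x y => Finset.card_le_card (Fs_sub hzz x y)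
  have hb : p - 1 ≤ 2 * Nat.card E := by
    haveI : Nontrivial α := by
      rw [← Finite.one_lt_card_iff_nontrivial, hα]; exact hp.out.one_lt
    obtain ⟨x, y, hxy⟩ := exists_pair_ne α
    have e := two_e H h2 hα hzE hz hxy
    have hq := Q_pos H h2 hxy
    by_contra hlt
    push Not at hlt
    have e2 : 2 * Nat.card E * (Fs z x y).card ≤ 2 * Nat.card E * (Q (G := G) x y).card :=
      Nat.mul_le_mul_left _ (hle x y)
    have e3 : 2 * Nat.card E * (Q (G := G) x y).card < (p - 1) * (Q (G := G) x y).card :=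
      Nat.mul_lt_mul_of_pos_right hlt hq
    omega
  have hdiv : p - 1 = Nat.card E * Nat.card (Tau D) := by
    have := p_eq D
    rw [H15Odd.card_rng H] at this
    omega
  have hE : 0 < Nat.card E := Nat.card_pos
  have hT : Nat.card (Tau D) ≤ 2 := by
    by_contra h
    push Not at h
    have : Nat.card E * 3 ≤ Nat.card E * Nat.card (Tau D) := Nat.mul_le_mul_left _ h
    omega
  have hT0 : Nat.card (Tau D) ≠ 0 := by
    intro h
    rw [h] at hdiv
    omega
  have hT' : Nat.card (Tau D) = 1 ∨ Nat.card (Tau D) = 2 := by omega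
  rcases hT' with h | h
  · left; rw [hdiv, h, mul_one]
  · right
    have h1 : p - 1 = 2 * Nat.card E := by rw [hdiv, h, mul_comm]
    refine ⟨h1, fun x y hxy => ?_⟩
    have e := two_e H h2 hα hzE hz hxy
    rw [h1] at e
    have e2 := Nat.eq_of_mul_eq_mul_left (by omega) e
    exact Finset.eq_of_subset_of_card_le (Fs_sub hzz x y) e2.le

/-- `E` is cyclic -/
theorem E_cyc : IsCyclic E := by
  let f : E →* ZMod p := (Units.coeHom (ZMod p)).comp ((κu D).comp (Subgroup.inclusion H.EN))
  apply isCyclic_of_injective_ringHom (f := f) ?_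
  rw [injective_iff_map_eq_one]
  intro a ha
  have h1 : κu D (Subgroup.inclusion H.EN a) = 1 := Units.ext ha
  rw [BRInd.kappa_one_iff] at h1
  exact Subtype.ext (H.dec' a a.2 (H.hCP h1))

/-- `E` acts transitively on the rest in the first case -/
theorem E_trans (hα : Nat.card α = p) (hpe : p - 1 = Nat.card E) {w : α} (hw : ∀ g ∈ E, g • w = w) {x y : α}
    (hx : x ≠ w) (hy : y ≠ w) : ∃ g ∈ E, g • x = y := by
  classical
  haveI : Fintype E := Fintype.ofFinite _
  have h1 : ∀ g : E, (g : G) • x ∈ Finset.univ.erase w := by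
    intro g
    rw [Finset.mem_erase]
    refine ⟨fun h => hx ?_, Finset.mem_univ _⟩
    have := hw g g.2
    rw [← this] at h
    exact smul_left_cancel _ h
  have h2 : Function.Injective (fun g : E => (g : G) • x) := by
    intro a b hab
    have hab' : (a : G) • x = (b : G) • x := hab
    by_contra hne
    have h3 : (b : G)⁻¹ * a ≠ 1 := by
      intro h
      exact hne (Subtype.ext (inv_mul_eq_one.1 h).symm)
    apply hx
    apply fix_one H hα (E.mul_mem (E.inv_mem b.2) a.2) h3
    · rw [mul_smul, hab', inv_smul_smul]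
    · exact hw _ (E.mul_mem (E.inv_mem b.2) a.2)
  have h3 : Finset.univ.image (fun g : E => (g : G) • x) = Finset.univ.erase w := by
    apply Finset.eq_of_subset_of_card_le
    · intro u hu
      obtain ⟨g, -, rfl⟩ := Finset.mem_image.1 hu
      exact h1 g
    · rw [Finset.card_erase_of_mem (Finset.mem_univ _), Finset.card_univ, ← Nat.card_eq_fintype_card, hα,
        Finset.card_image_of_injective _ h2, Finset.card_univ, ← Nat.card_eq_fintype_card, hpe]
  have h4 : y ∈ Finset.univ.image (fun g : E => (g : G) • x) := by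
    rw [h3, Finset.mem_erase]; exact ⟨hy, Finset.mem_univ _⟩
  obtain ⟨g, -, hg⟩ := Finset.mem_image.1 h4
  exact ⟨g, g.2, hg⟩

/-- the first case is impossible -/
theorem no_full [DecidableEq α] (hα : Nat.card α = p) (heven : Even (Nat.card E)) (hpe : p - 1 = Nat.card E) : False := by
  classical
  obtain ⟨z, hzE, hz⟩ := exists_inv H heven
  have hz1 : z ≠ 1 := by rintro rfl; rw [orderOf_one] at hz; omega
  obtain ⟨w, hw⟩ := exists_fix (α := α) H hα hz
  have hwE := E_fix H hα hzE hz1 hw
  haveI := E_cyc H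
  obtain ⟨g, hg⟩ := IsCyclic.exists_generator (α := E)
  have hg1 : (g : G) ≠ 1 := by
    intro h
    have h1 : g = 1 := Subtype.ext h
    obtain ⟨k, hk⟩ := hg ⟨z, hzE⟩
    apply hz1
    have h2 : (⟨z, hzE⟩ : E) = 1 := by rw [← hk, h1]; simp
    exact congrArg Subtype.val h2
  set σ : Equiv.Perm α := MulAction.toPermHom G α (g : G) with hσ
  have hσa : ∀ a, σ a = (g : G) • a := fun a => rfl
  have hsupp : σ.support = Finset.univ.erase w := by
    ext u
    rw [Equiv.Perm.mem_support, hσa, Finset.mem_erase]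
    constructor
    · rintro h
      refine ⟨?_, Finset.mem_univ _⟩
      rintro rfl
      exact h (hwE g g.2)
    · rintro ⟨h, -⟩ h'
      exact h (fix_one H hα g.2 hg1 h' (hwE g g.2))
  have h5 := H.h5
  have hcard : σ.support.card = p - 1 := by
    rw [hsupp, Finset.card_erase_of_mem (Finset.mem_univ _), Finset.card_univ, ← Nat.card_eq_fintype_card, hα]
  have hcyc : σ.IsCycle := by
    have hne : σ.support.Nonempty := by rw [← Finset.card_pos, hcard]; omega
    obtain ⟨x, hx⟩ := hne
    refine ⟨x, Equiv.Perm.mem_support.1 hx, fun y hy => ?_⟩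
    have hy' := Equiv.Perm.mem_support.2 hy
    rw [hsupp, Finset.mem_erase] at hx hy'
    obtain ⟨k, hk, hkx⟩ := E_trans H hα hpe hwE hx.1 hy'.1
    obtain ⟨n, hn⟩ := hg ⟨k, hk⟩
    refine ⟨n, ?_⟩
    have hn' : (g : G) ^ n = k := by
      have := congrArg Subtype.val hn
      simpa using this
    have h6 : σ ^ n = MulAction.toPermHom G α ((g : G) ^ n) := by rw [map_zpow]
    rw [h6, hn']
    exact hkx
  have hsign := hcyc.sign
  rw [hcard] at hsign
  have hev : Even (p - 1) := by rw [hpe]; exact heven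
  rw [hev.neg_one_pow] at hsign
  have hker : (g : G) ∈ (Equiv.Perm.sign.comp (MulAction.toPermHom G α)).ker := by
    have h7 : commutator G ≤ (Equiv.Perm.sign.comp (MulAction.toPermHom G α)).ker :=
      Abelianization.commutator_subset_ker _
    rw [H.perfect] at h7
    exact h7 (Subgroup.mem_top _)
  rw [MonoidHom.mem_ker, MonoidHom.comp_apply, ← hσ, hsign] at hker
  exact absurd hker (by decide)

/-- in the second case two-point stabilisers are abelian and the action is sharply `3`-transitive -/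
theorem sharp (h3 : IsMultiplyPretransitive G α 3) {z : G} (hz : orderOf z = 2)
    (hF : ∀ x y : α, x ≠ y → Fs z x y = Q x y) {g : G} {x y w : α} (hxy : x ≠ y) (hxw : x ≠ w) (hyw : y ≠ w)
    (hgx : g • x = x) (hgy : g • y = y) (hgw : g • w = w) : g = 1 := by
  classical
  have hzz : z * z = 1 := by rw [← sq, ← hz, pow_orderOf_eq_one]
  have hinv : ∀ a : G, a • x = y → a • y = x → a * a = 1 := by
    intro a ha hb
    have h1 : a ∈ Q (G := G) x y := by rw [Q, Finset.mem_filter]; exact ⟨Finset.mem_univ _, ha, hb⟩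
    rw [← hF x y hxy, Fs, Finset.mem_filter] at h1
    obtain ⟨c, hc⟩ := isConj_iff.1 h1.2.1
    rw [← hc]
    calc c * z * c⁻¹ * (c * z * c⁻¹) = c * (z * z) * c⁻¹ := by group
      _ = 1 := by rw [hzz]; group
  obtain ⟨a, ha1, ha2, -⟩ := three h3 hxy hxw hyw hxy.symm hyw hxw
  have haa := hinv a ha1 ha2
  have hflip : ∀ h : G, h • x = x → h • y = y → a * h * a = h⁻¹ := by
    intro h hhx hhy
    have h1 : a * h * (a * h) = 1 := hinv (a * h) (by rw [mul_smul, hhx, ha1]) (by rw [mul_smul, hhy, ha2])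
    rw [eq_inv_iff_mul_eq_one]
    calc a * h * a * h = a * h * (a * h) := by group
      _ = 1 := h1
  have hcomm : ∀ h k : G, h • x = x → h • y = y → k • x = x → k • y = y → h * k = k * h := by
    intro h k hhx hhy hkx hky
    have e1 := hflip h hhx hhy
    have e2 := hflip k hkx hky
    have e3 := hflip (h * k) (by rw [mul_smul, hkx, hhx]) (by rw [mul_smul, hky, hhy])
    have e4 : a * (h * k) * a = (a * h * a) * (a * k * a) := by
      calc a * (h * k) * a = a * h * 1 * k * a := by group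
        _ = a * h * (a * a) * k * a := by rw [haa]
        _ = _ := by group
    rw [e1, e2, e3, ← mul_inv_rev] at e4
    exact inv_injective e4
  apply FaithfulSMul.eq_of_smul_eq_smul (M := G) (α := α)
  intro v
  rw [one_smul]
  by_cases hvx : x = v
  · rw [← hvx, hgx]
  by_cases hvy : y = v
  · rw [← hvy, hgy]
  obtain ⟨k, hk1, hk2, hk3⟩ := three h3 hxy hxw hyw hxy hvx hvy
  rw [← hk3, ← mul_smul, hcomm g k hgx hgy hk1 hk2, mul_smul, hgw]

/-- in the second case `E` has order two -/
theorem E_two (h3 : IsMultiplyPretransitive G α 3) [IsPretransitive G α] (hα : Nat.card α = p)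
    {z : G} (hzE : z ∈ E) (hz : orderOf z = 2)
    (hF : ∀ x y : α, x ≠ y → Fs z x y = Q x y) : Nat.card E = 2 := by
  classical
  have hz1 : z ≠ 1 := by rintro rfl; rw [orderOf_one] at hz; omega
  have hzz : z * z = 1 := by rw [← sq, ← hz, pow_orderOf_eq_one]
  obtain ⟨w, hw⟩ := exists_fix (α := α) H hα hz
  have hwE := E_fix H hα hzE hz1 hw
  have h5 := H.h5
  have h2 : IsMultiplyPretransitive (stabilizer G w) (SubMulAction.ofStabilizer G w) 2 :=
    SubMulAction.ofStabilizer.isMultiplyPretransitive.1 h3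
  obtain ⟨q, hq, K, -, hK, -, hKq, -⟩ := Sharply2.main h2 (by
    intro g a b hab hga hgb
    apply Subtype.ext
    have h4 : (a : α) ≠ b := fun h => hab (Subtype.ext h)
    apply sharp H h3 hz hF h4 a.2 b.2 (congrArg Subtype.val hga) (congrArg Subtype.val hgb) g.2) (by
    rw [SubMulAction.nat_card_ofStabilizer_eq, hα]; omega)
  have hmem : ∀ g, ∀ hg : g ∈ E, (⟨g, hwE g hg⟩ : stabilizer G w) ∈ K := by
    intro g hg
    rw [hK]
    by_cases hg1 : g = 1
    · left; exact Subtype.ext hg1
    · right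
      intro a ha
      have h4 : g • (a : α) = a := congrArg Subtype.val ha
      exact a.2 (fix_one H hα hg hg1 h4 (hwE g hg))
  have hq2 : q = 2 := by
    have h4 := hKq _ (hmem z hzE)
    have h5 : z ^ q = 1 := congrArg Subtype.val h4
    have h6 := orderOf_dvd_of_pow_eq_one h5
    rw [hz] at h6
    exact ((Nat.prime_dvd_prime_iff_eq Nat.prime_two hq).1 h6).symm
  have hsq : ∀ g ∈ E, g * g = 1 := by
    intro g hg
    have h4 := hKq _ (hmem g hg)
    rw [hq2] at h4
    have h5 : g ^ 2 = 1 := congrArg Subtype.val h4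
    rw [← sq, h5]
  have hE : E = Subgroup.zpowers z := by
    apply le_antisymm
    · intro g hg
      by_cases hg1 : g = 1
      · rw [hg1]; exact Subgroup.one_mem _
      · rw [uniq_inv H hzE hz1 hzz hg hg1 (hsq g hg)]
        exact Subgroup.mem_zpowers z
    · rw [Subgroup.zpowers_le]; exact hzE
  rw [hE, Nat.card_zpowers, hz]

theorem even_final (h3 : IsMultiplyPretransitive G α 3) [IsPretransitive G α] (hα : Nat.card α = p)
    (heven : Even (Nat.card E)) :
    p = 5 ∧ ∃ (F : Type) (_ : Field F) (_ : Fintype F), Fintype.card F = p ∧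
      Nonempty (G ≃* Matrix.ProjectiveSpecialLinearGroup (Fin 2) F) := by
  classical
  obtain ⟨z, hzE, hz⟩ := exists_inv H heven
  have h5 := H.h5
  have h2 : ∀ a b c d : α, a ≠ b → c ≠ d → ∃ g : G, g • a = c ∧ g • b = d := by
    intro a b c d hab hcd
    have h4 : IsMultiplyPretransitive G α 2 := isMultiplyPretransitive_of_le (by norm_num) (n := 3) (by
      omega)
    exact is_two_pretransitive_iff.1 h4 hab hcd
  rcases two_cases H h2 hα hzE hz with hpe | ⟨hpe, hF⟩
  · exact (no_full H hα heven hpe).elim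
  · have hE := E_two H h3 hα hzE hz hF
    have hp5 : p = 5 := by omega
    subst hp5
    have hG : Nat.card G = 60 := by
      have h6 := SharpMult.card_of_sharp h3 (by omega) (by
        intro x
        rw [Subgroup.eq_bot_iff_forall]
        intro g hg
        have hg' : g • x = x := hg
        have h7 : ∀ i, g • x i = x i := fun i => by
          have := DFunLike.congr_fun hg' i
          exact this
        exact sharp H h3 hz hF (x.injective.ne (by decide : (0 : Fin 3) ≠ 1)) (x.injective.ne (by decide : (0 : Fin 3) ≠ 2))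
          (x.injective.ne (by decide : (1 : Fin 3) ≠ 2)) (h7 0) (h7 1) (h7 2))
      rw [h6, hα]; rfl
    refine ⟨rfl, ZMod 5, inferInstance, inferInstance, ZMod.card 5, ?_⟩
    obtain ⟨e1⟩ := ClSmall.equiv_alternating_of_injective (G := G) (α := α) 5 (by rw [← Nat.card_eq_fintype_card, hα])
      (by norm_num) (MulAction.toPermHom G α) MulAction.toPerm_injective (by rw [hG]; rfl)
    obtain ⟨e2⟩ := ClSmall.psl2_five (F := ZMod 5) (ZMod.card 5)
    exact ⟨e1.trans e2.symm⟩

end cases

end Cfsg.Agent.Lib.H15Even
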