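import Cfsg.Agent.Lib.H15TIc
import Cfsg.Agent.Lib.H15RedC
import Cfsg.Agent.Lib.BRPerm

set_option autoImplicit false
set_option linter.all false

/-!
# The characters of degree `p + 1`
-/

namespace Cfsg.Agent.Lib.H15Psi

open Cfsg Cfsg.Agent.Lib.CharBasic Cfsg.Agent.Lib.BlockThird Cfsg.Agent.Lib.H15TIc Cfsg.Agent.Lib.H15TateG
  Cfsg.Agent.Lib.H15RedC
open scoped ComplexConjugate

universe u

variable {G : Type u} [Group G] [Fintype G]

/-- the configuration -/
structure Cz (p : ℕ) (P N E M : Subgroup G) (x : G) (ζ : G → ℂ) : Prop where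
  D : Dat p P N E x
  T : TIc E M
  h5 : 5 ≤ p
  odd : Odd (Nat.card E)
  irr : IsIrrCharacter G ζ
  one : ζ 1 = p
  sing : ∀ g, p ∣ orderOf g → ζ g = 0
  onE : ∀ h ∈ E, h ≠ 1 → ζ h = 1
  real : ∀ g, conj (ζ g) = ζ g
  fus : ∀ h ∈ E, h ≠ 1 → ∀ y ∈ P, ∃ z : G, h * y = z * h * z⁻¹

variable {p : ℕ} [hp : Fact p.Prime] {P N E M : Subgroup G} {x : G} {ζ : G → ℂ} (Z : Cz p P N E M x ζ) [Fintype E]

/-- the character of degree `p + 1` -/
noncomputable def psi (ζ : G → ℂ) (l : IrrCharacter E) : G → ℂ := (fun _ => 1) + ζ - ff l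

include Z in
omit [Fintype E] in
theorem not_sing_E {h : G} (hh : h ∈ E) : ¬ p ∣ orderOf h := by
  intro h1
  apply Z.D.pe
  have h2 : orderOf (⟨h, hh⟩ : E) ∣ Nat.card E := orderOf_dvd_natCard _
  rw [Subgroup.orderOf_mk] at h2
  exact h1.trans h2

include Z in
theorem ff_sing (l : IrrCharacter E) {g : G} (hg : p ∣ orderOf g) : ff l g = 0 := by
  apply ff_zero
  intro y hy
  have h1 := not_sing_E Z hy
  apply h1
  have h2 : y⁻¹ * g * y = (MulAut.conj y⁻¹) g := by rw [MulAut.conj_apply, inv_inv]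
  rw [h2, MulEquiv.orderOf_eq]
  exact hg

include Z in
omit [Fintype E] in
theorem inner_triv_zeta : classInner (fun _ : G => (1 : ℂ)) ζ = 0 := by
  have h1 := irr_orthonormal (triv G) (⟨ζ, Z.irr⟩ : IrrCharacter G)
  rw [if_neg, coe_triv] at h1
  · exact h1
  · intro h
    have h2 := congrArg (fun χ : IrrCharacter G => (χ : G → ℂ) 1) h
    have h3 : (1 : ℂ) = ζ 1 := h2
    rw [Z.one] at h3
    have h4 : (1 : ℕ) = p := by exact_mod_cast h3
    have := Z.h5
    omega

include Z in
omit [Fintype E] in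
theorem inner_zeta_triv : classInner ζ (fun _ : G => (1 : ℂ)) = 0 := by
  rw [← conj_classInner, inner_triv_zeta Z, map_zero]

omit [Fintype E] in
theorem inner_triv_triv : classInner (fun _ : G => (1 : ℂ)) (fun _ => 1) = 1 := by
  have h1 := irr_orthonormal (triv G) (triv G)
  rwa [if_pos rfl, coe_triv] at h1

include Z in
theorem ff_triv (l : IrrCharacter E) (hl : l ≠ triv E) : classInner (ff l) (fun _ : G => (1 : ℂ)) = 1 := by
  rw [ff_inner (fun _ _ => rfl)]
  exact al_inner_triv l hl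

include Z in
theorem ff_zeta (l : IrrCharacter E) (hl : l ≠ triv E) : classInner (ff l) ζ = 1 := by
  rw [ff_inner Z.irr.isClassFunction, al_inner_of_eq l (al_one Z.T l) (ψ := fun _ => 1)]
  · exact al_inner_triv l hl
  · intro y hy
    exact Z.onE y y.2 (fun h => hy (Subtype.ext h))

include Z in
omit [Fintype G] in
/-- odd order: real linear characters are trivial -/
theorem sq_ne (l : IrrCharacter E) (hl : l ≠ triv E) : ∃ h₀ : E, (l : E → ℂ) h₀ ^ 2 ≠ 1 := by
  by_contra hcon
  push Not at hcon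
  apply hl
  apply Subtype.ext
  funext h
  have h1 := lin Z.T l
  have hroot : (l : E → ℂ) h ^ Nat.card E = 1 := by
    obtain ⟨f, hf⟩ := l.2.isCharacter.exists_hom h1
    rw [hf, ← Units.val_pow_eq_pow_val, ← map_pow, pow_card_eq_one', map_one, Units.val_one]
  obtain ⟨k, hk⟩ := Z.odd
  rw [hk, pow_succ, pow_mul, hcon, one_pow, one_mul] at hroot
  exact hroot

include Z in
theorem bar_ne (l : IrrCharacter E) (hl : l ≠ triv E) : l ≠ bar l := by
  intro h
  obtain ⟨h₀, hh₀⟩ := sq_ne Z l hl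
  apply hh₀
  have h1 : (l : E → ℂ) h₀ = (bar l : E → ℂ) h₀ := by rw [← h]
  have h2 := l.2.isCharacter.mul_conj_of_linear (lin Z.T l) h₀
  have h3 : (bar l : E → ℂ) h₀ = conj ((l : E → ℂ) h₀) := rfl
  rw [← h3, ← h1] at h2
  rw [sq, h2]

include Z in
theorem psi_one (l : IrrCharacter E) : psi ζ l 1 = ((p + 1 : ℕ) : ℂ) := by
  rw [psi, Pi.sub_apply, Pi.add_apply, ff_one Z.T, Z.one]
  push_cast; ring

include Z in
theorem psi_inner (l m : IrrCharacter E) (hl : l ≠ triv E) (hm : m ≠ triv E) :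
    classInner (psi ζ l) (psi ζ m) = (if l = m then 1 else 0) + (if l = bar m then 1 else 0) := by
  have h1 : classInner (fun _ : G => (1 : ℂ)) (ff m) = 1 := by
    rw [← conj_classInner, ff_triv Z m hm, map_one]
  have h2 : classInner ζ (ff m) = 1 := by
    rw [← conj_classInner, ff_zeta Z m hm, map_one]
  rw [psi, psi, classInner_sub_left, classInner_sub_right, classInner_sub_right, classInner_add_left,
    classInner_add_left, classInner_add_right, classInner_add_right, classInner_add_right, inner_triv_triv,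
    inner_triv_zeta Z, inner_zeta_triv Z, Z.irr.classInner_self, h1, h2, ff_triv Z l hl, ff_zeta Z l hl,
    ff_ff Z.T l m hl hm]
  ring

include Z in
theorem psi_irr (l : IrrCharacter E) (hl : l ≠ triv E) : IsIrrCharacter G (psi ζ l) := by
  have hg : IsGeneralizedCharacter G (psi ζ l) :=
    ((isGeneralized_one (G := G)).add Z.irr.isGeneralized).sub (ff_gen l)
  apply hg.irr_of_norm_one
  · rw [psi_inner Z l l hl hl, if_pos rfl, if_neg (bar_ne Z l hl), add_zero]
  · rw [psi_one Z, Complex.natCast_re]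
    positivity

include Z in
theorem psi_sing (l : IrrCharacter E) {g : G} (hg : p ∣ orderOf g) : psi ζ l g = 1 := by
  rw [psi, Pi.sub_apply, Pi.add_apply, ff_sing Z l hg, Z.sing g hg]
  ring

include Z in
theorem psi_E (l : IrrCharacter E) (h : E) (hh : h ≠ 1) : psi ζ l (h : G) = (l : E → ℂ) h + (l : E → ℂ) h⁻¹ := by
  rw [psi, Pi.sub_apply, Pi.add_apply, ff_val Z.T, Z.onE h h.2 (fun h' => hh (Subtype.ext h'))]
  ring

/-- class functions supported on the conjugates of `E` -/
theorem eq_of_supp {f₁ f₂ : G → ℂ} (h1 : IsClassFunction G f₁) (h2 : IsClassFunction G f₂)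
    (z1 : ∀ g, (∀ x : G, x⁻¹ * g * x ∉ E) → f₁ g = 0) (z2 : ∀ g, (∀ x : G, x⁻¹ * g * x ∉ E) → f₂ g = 0)
    (he : ∀ h ∈ E, f₁ h = f₂ h) (g : G) : f₁ g = f₂ g := by
  by_cases hg : ∀ x : G, x⁻¹ * g * x ∉ E
  · rw [z1 g hg, z2 g hg]
  · push Not at hg
    obtain ⟨y, hy⟩ := hg
    have h3 := he _ hy
    have e1 := h1 g y⁻¹
    have e2 := h2 g y⁻¹
    rw [inv_inv] at e1 e2
    rw [← e1, ← e2]
    exact h3

include Z in
theorem psi_real (l : IrrCharacter E) (g : G) : conj (psi ζ l g) = psi ζ l g := by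
  have h1 : conj (ff l g) = ff l g := by
    refine eq_of_supp (E := E) (f₁ := fun g => conj (ff l g)) (f₂ := ff l) ?_ (ff_class l) ?_ (fun g hg => ff_zero l hg) ?_ g
    · intro a b
      change conj (ff l _) = conj (ff l _)
      rw [ff_class l a b]
    · intro g hg
      rw [ff_zero l hg, map_zero]
    · intro h hh
      have h2 := ff_val Z.T l ⟨h, hh⟩
      change conj (ff l h) = ff l h
      rw [h2, map_sub, map_sub, ← l.2.isCharacter.inv, ← l.2.isCharacter.inv, inv_inv]
      have : conj (2 : ℂ) = 2 := Complex.conj_ofNat 2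
      rw [this]; ring
  rw [psi, Pi.sub_apply, Pi.add_apply, map_sub, map_add, h1, Z.real, map_one]

variable [Fintype P] [Fintype N]

include Z in
omit [Fintype N] in
theorem sum_coset {f : G → ℂ} (hf : IsClassFunction G f) (h : E) (hh : h ≠ 1) : ∑ y : P, f (h * y) = p * f h := by
  have h1 : ∀ y : P, f (h * y) = f h := by
    intro y
    obtain ⟨z, hz⟩ := Z.fus h h.2 (fun h' => hh (Subtype.ext h')) y y.2
    rw [hz]; exact hf _ _
  rw [Finset.sum_congr rfl fun y _ => h1 y, Finset.sum_const, Finset.card_univ, ← Nat.card_eq_fintype_card, Z.D.cardP,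
    nsmul_eq_mul]

include Z in
theorem psi_coset (l : IrrCharacter E) (h : E) :
    ∑ y : P, psi ζ l (h * y) = p * ((l : E → ℂ) h + (l : E → ℂ) h⁻¹) := by
  classical
  by_cases hh : h = 1
  · subst hh
    have h1 := lin Z.T l
    rw [inv_one, h1, ← Finset.add_sum_erase _ _ (Finset.mem_univ (1 : P))]
    have h2 : ∀ y ∈ Finset.univ.erase (1 : P), psi ζ l (((1 : E) : G) * y) = 1 := by
      intro y hy
      have hy1 : (y : G) ≠ 1 := fun h' => (Finset.ne_of_mem_erase hy) (Subtype.ext h')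
      rw [Subgroup.coe_one, one_mul]
      refine psi_sing Z l ?_
      rw [BRPerm.order_of_mem Z.D.cardP y.2 hy1]
    rw [Finset.sum_congr rfl h2, Finset.sum_const, Finset.card_erase_of_mem (Finset.mem_univ _), Finset.card_univ,
      ← Nat.card_eq_fintype_card, Z.D.cardP, Subgroup.coe_one, Subgroup.coe_one, one_mul, psi_one Z, nsmul_eq_mul]
    have := Z.h5
    push_cast [Nat.cast_sub (show 1 ≤ p by omega)]
    ring
  · have hcf : IsClassFunction G (psi ζ l) := by
      intro a b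
      rw [psi, Pi.sub_apply, Pi.add_apply, Pi.sub_apply, Pi.add_apply, ff_class l a b, Z.irr.isClassFunction a b]
    rw [sum_coset Z hcf h hh, psi_E Z l h hh]

include Z in
omit [Fintype P] [Fintype N] in
theorem sum_lin (l : IrrCharacter E) (hl : l ≠ triv E) : ∑ h : E, (l : E → ℂ) h = 0 := by
  have h1 := irr_orthonormal l (triv E)
  rw [if_neg hl, coe_triv, classInner_def] at h1
  have hE0 : (Nat.card E : ℂ)⁻¹ ≠ 0 := inv_ne_zero (by exact_mod_cast Nat.card_pos.ne')
  have h2 := (mul_eq_zero.1 h1).resolve_left hE0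
  rw [← h2]
  refine Finset.sum_congr rfl fun h _ => ?_
  rw [map_one, mul_one]

include Z in
omit [Fintype P] [Fintype N] in
theorem sum_lin_inv (l : IrrCharacter E) (hl : l ≠ triv E) : ∑ h : E, (l : E → ℂ) h⁻¹ = 0 := by
  rw [← sum_lin Z l hl]
  exact Fintype.sum_equiv (Equiv.inv E) _ _ fun h => rfl

include Z in
theorem psi_Psi (l : IrrCharacter E) (hl : l ≠ triv E) : Psi p N (psi ζ l) where
  irr := psi_irr Z l hl
  real := psi_real Z l
  deg := ⟨p + 1, psi_one Z l, by have := Z.h5; omega⟩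
  sing := fun g hg => ⟨1, by rw [psi_sing Z l hg, Int.cast_one]⟩
  sum0 := by
    rw [sum_N Z.D (psi ζ l), Finset.sum_congr rfl fun h _ => psi_coset Z l h, ← Finset.mul_sum, Finset.sum_add_distrib,
      sum_lin Z l hl, sum_lin_inv Z l hl, add_zero, mul_zero]

include Z in
theorem psi_SS (l : IrrCharacter E) (hl : l ≠ triv E) : SS P E (l : E → ℂ) (psi ζ l) 1 = (p : ℂ) * Nat.card E := by
  unfold SS
  have h1 : ∀ h : E, (l : E → ℂ) h * ∑ y : P, psi ζ l (1 * h * y) = p * ((l : E → ℂ) h * (l : E → ℂ) h + 1) := by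
    intro h
    have h2 : ∑ y : P, psi ζ l (1 * h * y) = ∑ y : P, psi ζ l (h * y) :=
      Finset.sum_congr rfl fun y _ => by rw [one_mul]
    have h3 : (l : E → ℂ) h * (l : E → ℂ) h⁻¹ = 1 := by
      rw [l.2.isCharacter.inv]; exact l.2.isCharacter.mul_conj_of_linear (lin Z.T l) h
    rw [h2, psi_coset Z]
    linear_combination (p : ℂ) * h3
  rw [Finset.sum_congr rfl fun h _ => h1 h, ← Finset.mul_sum, Finset.sum_add_distrib]
  have h4 : ∑ h : E, (l : E → ℂ) h * (l : E → ℂ) h = 0 := by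
    have h5 := irr_orthonormal l (bar l)
    rw [if_neg (bar_ne Z l hl), classInner_def] at h5
    have hE0 : (Nat.card E : ℂ)⁻¹ ≠ 0 := inv_ne_zero (by exact_mod_cast Nat.card_pos.ne')
    have h6 := (mul_eq_zero.1 h5).resolve_left hE0
    rw [← h6]
    refine Finset.sum_congr rfl fun h _ => ?_
    congr 1
    exact (Complex.conj_conj _).symm
  rw [h4, zero_add, Finset.sum_const, Finset.card_univ, nsmul_eq_mul, mul_one, Nat.card_eq_fintype_card]

include Z in
/-- nontrivial irreducible characters of degree prime to `p` do not contain the trivial character of `N` -/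
theorem sum_N_eq_zero {θ : G → ℂ} (hθ : IsIrrCharacter G θ) (hne : θ ≠ fun _ => 1) {d : ℕ} (hd : θ 1 = d) (hpd : ¬ p ∣ d) :
    ∑ n : N, θ n = 0 := by
  by_contra hcon
  apply hpd
  refine mmt Z.D (fun a b => Subtype.ext (Z.T.comm a a.2 b b.2)) (fun i hi => ⟨sq_ne Z i hi, psi ζ i, psi_Psi Z i hi,
    psi_SS Z i hi⟩) hθ ?_ hcon hd
  have h1 := irr_orthonormal (⟨θ, hθ⟩ : IrrCharacter G) (triv G)
  rw [if_neg (fun h => hne (congrArg Subtype.val h)), coe_triv, classInner_def] at h1
  have hG0 : (Nat.card G : ℂ)⁻¹ ≠ 0 := inv_ne_zero (by exact_mod_cast Nat.card_pos.ne')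
  have h2 := (mul_eq_zero.1 h1).resolve_left hG0
  rw [← h2]
  refine Finset.sum_congr rfl fun h _ => ?_
  rw [map_one, mul_one]

end Cfsg.Agent.Lib.H15Psi
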