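import Cfsg.Agent.Lib.H15Fix
import Cfsg.Agent.Lib.H15Psi
import Cfsg.Agent.Lib.H15TIm
import Cfsg.Agent.Lib.BRInd
import Cfsg.Agent.Lib.H15RealP
import Cfsg.Agent.Lib.DefectZeroVanish

set_option autoImplicit false
set_option linter.all false

/-!
# Groups with a self-centralizing Sylow subgroup of order `p` and one character of degree `p`
-/

namespace Cfsg.Agent.Lib.H15Gs

open Cfsg Cfsg.Agent.Lib.BlockRing Cfsg.Agent.Lib.BlockGA Cfsg.Agent.Lib.BlockIdem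
open Cfsg.Agent.Lib.DefOneLoc Cfsg.Agent.Lib.DefOneOrd Cfsg.Agent.Lib.CharBasic Cfsg.Agent.Lib.DefOneGram
open Cfsg.Agent.Lib.DefOne Cfsg.Agent.Lib.BlockThird Cfsg.Agent.Lib.DefOnePrin Cfsg.Agent.Lib.BRB0
open Cfsg.Agent.Lib.BRPerm Cfsg.Agent.Lib.H15TateG
open scoped ComplexConjugate

universe u

variable {G : Type u} [Group G] [Fintype G] {p : ℕ} [hp : Fact p.Prime]

/-- the hypotheses -/
structure Bs {P N C : Subgroup G} (D : Loc p P N C) (E M : Subgroup G) (ζ : G → ℂ) : Prop where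
  hP : Nat.card P = p
  syl : ∃ Q : Sylow p G, (Q : Subgroup G) = P
  NN : N = Subgroup.normalizer (P : Set G)
  hCP : C ≤ P
  sup : P ⊔ E = N
  inf : P ⊓ E = ⊥
  MM : M = Subgroup.normalizer (E : Set G)
  cardM : Nat.card M = 2 * Nat.card E
  ti : ∀ g, ∀ h ∈ E, h ≠ 1 → g⁻¹ * h * g ∈ E → g ∈ M
  E1 : E ≠ ⊥
  h5 : 5 ≤ p
  irr : IsIrrCharacter G ζ
  one : ζ 1 = p
  uniq : ∀ χ : G → ℂ, IsIrrCharacter G χ → χ 1 = p → χ = ζ

variable {P N C E M : Subgroup G} {D : Loc p P N C} {ζ : G → ℂ} (H : Bs D E M ζ)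

include H

theorem Bs.EN : E ≤ N := by rw [← H.sup]; exact le_sup_right

theorem Bs.PN : P ≤ N := by rw [← H.sup]; exact le_sup_left

theorem Bs.dec : ∀ n ∈ N, ∃ h ∈ E, ∃ y ∈ P, n = h * y := by
  let S : Subgroup G :=
    { carrier := {g | ∃ h ∈ E, ∃ y ∈ P, g = h * y}
      one_mem' := ⟨1, E.one_mem, 1, P.one_mem, by simp⟩
      mul_mem' := by
        rintro _ _ ⟨h, hh, y, hy, rfl⟩ ⟨h', hh', y', hy', rfl⟩
        refine ⟨h * h', E.mul_mem hh hh', (h'⁻¹ * y * h') * y', P.mul_mem ?_ hy', by group⟩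
        have := D.norm h'⁻¹ (N.inv_mem (H.EN hh')) y hy
        rwa [inv_inv] at this
      inv_mem' := by
        rintro _ ⟨h, hh, y, hy, rfl⟩
        refine ⟨h⁻¹, E.inv_mem hh, h * y⁻¹ * h⁻¹, D.norm h (H.EN hh) _ (P.inv_mem hy), by group⟩ }
  have h1 : P ⊔ E ≤ S := by
    refine sup_le (fun y hy => ⟨1, E.one_mem, y, hy, by simp⟩) (fun h hh => ⟨h, hh, 1, P.one_mem, by simp⟩)
  intro n hn
  rw [← H.sup] at hn
  exact h1 hn

theorem Bs.dec' : ∀ h ∈ E, h ∈ P → h = 1 := by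
  intro h hE hP
  have : h ∈ P ⊓ E := ⟨hP, hE⟩
  rw [H.inf] at this
  exact this

theorem Bs.pE : ¬ p ∣ Nat.card E := by
  intro h
  obtain ⟨z, hz⟩ := exists_prime_orderOf_dvd_card' (G := E) p h
  have h1 : orderOf (z : G) = p := by rw [Subgroup.orderOf_coe, hz]
  have h2 := BRInd.memP_of_ord D (H.EN z.2) h1 H.hCP
  have h3 := H.dec' z z.2 h2
  rw [h3, orderOf_one] at h1
  exact hp.out.one_lt.ne h1

theorem Bs.dat : Dat p P N E D.u where
  gen := by
    apply Subgroup.eq_of_le_of_card_ge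
    · rw [Subgroup.zpowers_le]; exact D.uP
    · rw [Nat.card_zpowers, D.ordu, H.hP]
  cardP := H.hP
  PN := H.PN
  EN := H.EN
  dec := H.dec
  dec' := H.dec'
  norm := D.norm
  free := fun g y hy hy1 hg => BRInd.mem_of_conj D hy hy1 H.hCP hg
  pe := H.pE
  pG := by
    obtain ⟨Q, hQ⟩ := H.syl
    rw [← hQ]
    exact Q.not_dvd_index

theorem Bs.cent : ∀ y ∈ P, y ≠ 1 → ∀ g, g * y = y * g → g ∈ P := by
  intro y hy hy1 g hg
  exact H.hCP ((D.comm g y hy hy1).2 hg.symm)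

theorem Bs.Pcomm : ∀ a ∈ P, ∀ b ∈ P, a * b = b * a := by
  intro a ha b hb
  by_cases hb1 : b = 1
  · rw [hb1, mul_one, one_mul]
  · exact ((D.comm a b hb hb1).1 (D.PC ha)).symm

theorem Bs.comm : ∀ a ∈ E, ∀ b ∈ E, a * b = b * a := by
  intro a ha b hb
  have h1 : (⟨a, H.EN ha⟩ * ⟨b, H.EN hb⟩ * ⟨a, H.EN ha⟩⁻¹ * ⟨b, H.EN hb⟩⁻¹ : N) ∈ (κu D).ker := by
    rw [MonoidHom.mem_ker, map_mul, map_mul, map_mul, map_inv, map_inv, mul_right_comm, mul_inv_cancel_right,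
      mul_inv_cancel]
  rw [MonoidHom.mem_ker, BRInd.kappa_one_iff] at h1
  have h2 : a * b * a⁻¹ * b⁻¹ ∈ P := H.hCP h1
  have h3 := H.dec' _ (E.mul_mem (E.mul_mem (E.mul_mem ha hb) (E.inv_mem ha)) (E.inv_mem hb)) h2
  rw [mul_inv_eq_one, mul_inv_eq_iff_eq_mul] at h3
  exact h3

theorem Bs.fus : ∀ h ∈ E, h ≠ 1 → ∀ y ∈ P, ∃ z ∈ P, h * y = z * h * z⁻¹ := by
  classical
  intro h hh h1 y hy
  have hinv : ∀ z ∈ P, h⁻¹ * z * h ∈ P := by
    intro z hz
    have := D.norm h⁻¹ (N.inv_mem (H.EN hh)) z hz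
    rwa [inv_inv] at this
  let f : P → P := fun z => ⟨h⁻¹ * z * h * (z : G)⁻¹, P.mul_mem (hinv z z.2) (P.inv_mem z.2)⟩
  have hf : Function.Injective f := by
    intro a b hab
    have h2 : h⁻¹ * (a : G) * h * (a : G)⁻¹ = h⁻¹ * b * h * (b : G)⁻¹ := congrArg Subtype.val hab
    by_contra hne
    have h3 : ((b : G)⁻¹ * a) ≠ 1 := by
      intro h4
      rw [inv_mul_eq_one] at h4
      exact hne (Subtype.ext h4.symm)
    have hmem : (b : G)⁻¹ * a ∈ P := P.mul_mem (P.inv_mem b.2) a.2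
    have h4 : h⁻¹ * ((b : G)⁻¹ * a) * h = (b : G)⁻¹ * a := by
      have e1 : h⁻¹ * (a : G) * h = h⁻¹ * b * h * (b : G)⁻¹ * a := by
        rw [← h2]; group
      have e2 : h⁻¹ * ((b : G)⁻¹ * a) * h = (h⁻¹ * b * h)⁻¹ * (h⁻¹ * a * h) := by group
      rw [e2, e1]; group
    have h5 : h * ((b : G)⁻¹ * a) = ((b : G)⁻¹ * a) * h := by
      calc h * ((b : G)⁻¹ * a) = h * (h⁻¹ * ((b : G)⁻¹ * a) * h) := by rw [h4]
        _ = _ := by group
    exact h1 (H.dec' h hh (H.cent _ hmem h3 h h5))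
  obtain ⟨z, hz⟩ := (Finite.injective_iff_surjective.1 hf) ⟨y, hy⟩
  have hz' : h⁻¹ * (z : G) * h * (z : G)⁻¹ = y := congrArg Subtype.val hz
  refine ⟨z, z.2, ?_⟩
  rw [← hz']; group

theorem Bs.sq : ¬ p ^ 2 ∣ Nat.card G := by
  intro h
  obtain ⟨Q, hQ⟩ := H.syl
  have h1 : Nat.card Q = p := (congrArg (fun S : Subgroup G => Nat.card S) hQ).trans H.hP
  exact DefOnePrin.not_sq Q h1 h

theorem Bs.sing {g : G} (hg : p ∣ orderOf g) : ζ g = 0 := by
  obtain ⟨n, ρ, hρ, hρζ⟩ := H.irr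
  have h1 := H.one
  rw [← hρζ, Representation.char_one] at h1
  have h2 : Module.finrank ℂ (Fin n → ℂ) = p := by exact_mod_cast h1
  rw [← hρζ]
  haveI := hρ
  exact DefectZeroVanish.character_eq_zero ρ p 1 hp.out H.sq (by rw [h2, pow_one]) g hg

/-- the linear character of `E` -/
theorem Bs.mu [Fintype P] : ∃ μ : E → ℂ, IsCharacter E μ ∧ μ 1 = 1 ∧ ∀ h : E, h ≠ 1 → ζ h = μ h := by
  classical
  refine ⟨_, H15Fix.fixed_char (P := P) (E := E) (fun h hh y hy => D.norm h (H.EN hh) y hy) H.irr.isCharacter, ?_, ?_⟩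
  · have h1 : ∑ y : P, ζ (((1 : E) : G) * y) = p := by
      rw [← Finset.add_sum_erase _ _ (Finset.mem_univ (1 : P)), Finset.sum_eq_zero, add_zero]
      · rw [Subgroup.coe_one, Subgroup.coe_one, mul_one, H.one]
      · intro y hy
        have hy1 : (y : G) ≠ 1 := fun h' => (Finset.ne_of_mem_erase hy) (Subtype.ext h')
        apply H.sing
        rw [Subgroup.coe_one, one_mul, BRPerm.order_of_mem H.hP y.2 hy1]
    rw [h1, H.hP, inv_mul_cancel₀]
    exact_mod_cast hp.out.ne_zero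
  · intro h hh
    have h1 : ∀ y : P, ζ (h * y) = ζ h := by
      intro y
      obtain ⟨z, -, hz⟩ := H.fus h h.2 (fun h' => hh (Subtype.ext h')) y y.2
      rw [hz]
      exact H.irr.isClassFunction _ _
    rw [Finset.sum_congr rfl fun y _ => h1 y, Finset.sum_const, Finset.card_univ, ← Nat.card_eq_fintype_card, H.hP,
      nsmul_eq_mul, ← mul_assoc, inv_mul_cancel₀, one_mul]
    exact_mod_cast hp.out.ne_zero

theorem Bs.exists_E : ∃ h ∈ E, h ≠ 1 := by
  by_contra hcon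
  push Not at hcon
  exact H.E1 ((Subgroup.eq_bot_iff_forall _).2 hcon)

/-- perfectness -/
theorem Bs.perfect : commutator G = ⊤ := by
  classical
  haveI : Fintype P := Fintype.ofFinite _
  by_contra hne
  -- a nontrivial linear character
  obtain ⟨g₀, hg₀⟩ : ∃ g : G, g ∉ commutator G := by
    by_contra hcon
    push Not at hcon
    exact hne ((Subgroup.eq_top_iff' _).2 hcon)
  have hab : (QuotientGroup.mk g₀ : Abelianization G) ≠ 1 := by
    intro h
    exact hg₀ ((QuotientGroup.eq_one_iff g₀).1 h)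
  obtain ⟨f, hf⟩ := CommGroup.exists_apply_ne_one_of_hasEnoughRootsOfUnity (Abelianization G) ℂ hab
  let F : G →* ℂˣ := f.comp Abelianization.of
  have hF : F g₀ ≠ 1 := hf
  have hlin := isCharacter_of_unitsHom F
  have h1 : ∀ g, ζ g ≠ 0 → F g = 1 := by
    intro g hg
    have h2 := H.irr.mul_linear hlin (by rw [map_one, Units.val_one])
    have h3 := H.uniq _ h2 (by
      rw [Pi.mul_apply, map_one, Units.val_one, mul_one, H.one])
    have h4 := congrFun h3 g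
    rw [Pi.mul_apply] at h4
    apply Units.ext
    rw [Units.val_one]
    exact mul_left_cancel₀ hg (by rw [h4, mul_one])
  obtain ⟨μ, hμ, hμ1, hμE⟩ := H.mu
  have hE : E ≤ F.ker := by
    intro h hh
    by_cases hh1 : h = 1
    · rw [hh1]; exact F.ker.one_mem
    · rw [MonoidHom.mem_ker]
      apply h1
      have h2 := hμE ⟨h, hh⟩ (fun h' => hh1 (congrArg Subtype.val h'))
      change ζ h = _ at h2
      rw [h2]
      exact hμ.ne_zero_of_linear hμ1 _
  have hP : P ≤ F.ker := by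
    intro y hy
    obtain ⟨h, hh, hh1⟩ := H.exists_E
    obtain ⟨z, hz, hzy⟩ := H.fus h hh hh1 y hy
    rw [MonoidHom.mem_ker]
    have h2 : y = h⁻¹ * z * h * z⁻¹ := by
      have : y = h⁻¹ * (h * y) := by group
      rw [this, hzy]; group
    rw [h2, map_mul, map_mul, map_mul, map_inv, map_inv]
    rw [mul_comm (F h)⁻¹ (F z), inv_mul_cancel_right, mul_inv_cancel]
  obtain ⟨Q, hQ⟩ := H.syl
  have hQK : (Q : Subgroup G) ≤ F.ker := by rw [hQ]; exact hP
  have h2 := Sylow.normalizer_sup_eq_top' Q hQK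
  have h3 : Subgroup.normalizer ((Q : Subgroup G) : Set G) ≤ F.ker := by
    rw [hQ, ← H.NN, ← H.sup]
    exact sup_le hP hE
  have h4 : Subgroup.normalizer (Q : Set G) ≤ F.ker := h3
  rw [sup_eq_right.2 h4] at h2
  apply hF
  have : g₀ ∈ F.ker := by rw [h2]; trivial
  exact this

end Cfsg.Agent.Lib.H15Gs
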