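import Cfsg.Agent.Lib.H15Psi

set_option autoImplicit false
set_option linter.all false

/-!
# The exceptional character and its square
-/

namespace Cfsg.Agent.Lib.H15Lam

open Cfsg Cfsg.Agent.Lib.CharBasic Cfsg.Agent.Lib.BlockThird Cfsg.Agent.Lib.H15TIc Cfsg.Agent.Lib.H15TateG
  Cfsg.Agent.Lib.H15RedC Cfsg.Agent.Lib.H15Psi Cfsg.Agent.Lib.BRCore Cfsg.Agent.Lib.BRPerm
open scoped ComplexConjugate

universe u

variable {G : Type u} [Group G] [Fintype G] {p : ℕ} [hp : Fact p.Prime] {P N E M : Subgroup G} {x : G} {ζ : G → ℂ}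
  (Z : Cz p P N E M x ζ) [Fintype E]

include Z in
/-- class functions orthogonal to all `ff l` vanish on `E` -/
theorem vanish {χ : G → ℂ} (hχ : IsClassFunction G χ) (h0 : ∀ l : IrrCharacter E, l ≠ triv E → classInner (ff l) χ = 0)
    {h : G} (hh : h ∈ E) (h1 : h ≠ 1) : χ h = 0 := by
  classical
  have hr : IsClassFunction E (fun e : E => χ e) := by
    intro a b
    exact hχ _ _
  have hc : ∀ l : IrrCharacter E, classInner (fun e : E => χ e) (l : E → ℂ) = classInner (fun e : E => χ e) (fun _ => 1) := by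
    intro l
    by_cases hl : l = triv E
    · rw [hl]; rfl
    · have h2 := h0 l hl
      rw [ff_inner hχ, al, classInner_sub_left, sub_eq_zero] at h2
      have h3 := congrArg conj h2
      rw [conj_classInner, conj_classInner] at h3
      exact h3.symm
  have h2 := hr.expansion_apply ⟨h, hh⟩
  rw [Finset.sum_congr rfl fun l _ => by rw [hc l], ← Finset.mul_sum] at h2
  have h3 : ∑ l : IrrCharacter E, (l : E → ℂ) ⟨h, hh⟩ = 0 := by
    rw [← CharBasic.sum_degree_mul (⟨h, hh⟩ : E) (fun h' => h1 (congrArg Subtype.val h'))]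
    exact Finset.sum_congr rfl fun i _ => by rw [lin Z.T, one_mul]
  rw [h3, mul_zero] at h2
  exact h2

/-- the exceptional character -/
structure Lm (Z : Cz p P N E M x ζ) (Λ : G → ℂ) : Prop where
  irr : IsIrrCharacter G Λ
  ne1 : Λ ≠ fun _ => 1
  neζ : Λ ≠ ζ
  neψ : ∀ l : IrrCharacter E, l ≠ triv E → Λ ≠ psi ζ l

variable {Λ : G → ℂ} (L : Lm Z Λ)

theorem inner_ne {χ ψ : G → ℂ} (h1 : IsIrrCharacter G χ) (h2 : IsIrrCharacter G ψ) (hne : χ ≠ ψ) : classInner χ ψ = 0 := by
  have := irr_orthonormal (⟨χ, h1⟩ : IrrCharacter G) ⟨ψ, h2⟩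
  rwa [if_neg (fun h => hne (congrArg Subtype.val h))] at this

include L in
theorem lam_E {h : G} (hh : h ∈ E) (h1 : h ≠ 1) : Λ h = 0 := by
  refine vanish Z L.irr.isClassFunction (fun l hl => ?_) hh h1
  have h2 : ff l = (fun _ => 1) + ζ - psi ζ l := by rw [psi]; abel
  rw [h2, classInner_sub_left, classInner_add_left, inner_ne isIrrCharacter_fun_one L.irr L.ne1.symm,
    inner_ne Z.irr L.irr L.neζ.symm, inner_ne (psi_irr Z l hl) L.irr (L.neψ l hl).symm]
  ring

include L in
theorem sum_P [Fintype P] [Fintype N] {d : ℕ} (hd : Λ 1 = d) (hpd : ¬ p ∣ d) : ∑ y : P, Λ y = 0 := by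
  have h1 := sum_N_eq_zero Z L.irr L.ne1 hd hpd
  rw [sum_N Z.D Λ, Finset.sum_eq_single (1 : E)] at h1
  · rw [← h1]
    exact Finset.sum_congr rfl fun y _ => by rw [Subgroup.coe_one, one_mul]
  · intro h _ hh
    rw [sum_coset Z L.irr.isClassFunction h hh, lam_E Z L h.2 (fun h' => hh (Subtype.ext h')), mul_zero]
  · intro h; exact absurd (Finset.mem_univ _) h

/-! ### the square -/

/-- `|Λ|²` -/
noncomputable def th (Λ : G → ℂ) : G → ℂ := fun g => Λ g * conj (Λ g)

omit [Fintype E] in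
theorem th_char (hΛ : IsIrrCharacter G Λ) : IsCharacter G (th Λ) := hΛ.isCharacter.mul hΛ.isCharacter.conj

omit [Fintype E] in
theorem th_triv (hΛ : IsIrrCharacter G Λ) : classInner (th Λ) (fun _ => 1) = 1 := by
  refine Eq.trans ?_ hΛ.classInner_self
  rw [classInner_def, classInner_def]
  congr 1
  refine Finset.sum_congr rfl fun g _ => ?_
  rw [map_one, mul_one]; rfl

include L in
theorem psi_th (l : IrrCharacter E) (hl : l ≠ triv E) : ∃ m : ℕ, classInner (th Λ) (psi ζ l) = 1 + m := by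
  have h1 : classInner (ff l) (th Λ) = 0 := by
    rw [ff_inner (th_char L.irr).isClassFunction, al_inner_of_eq l (al_one Z.T l) (ψ := fun _ => 0)]
    · rw [classInner_def]
      simp
    · intro y hy
      change Λ y * conj (Λ y) = 0
      rw [lam_E Z L y.2 (fun h => hy (Subtype.ext h)), zero_mul]
  obtain ⟨m, hm⟩ := (th_char L.irr).classInner_nat Z.irr.isCharacter
  refine ⟨m, ?_⟩
  have h2 : classInner (th Λ) (ff l) = 0 := by rw [← conj_classInner, h1, map_zero]
  rw [psi, classInner_sub_right, classInner_add_right, th_triv L.irr, hm, h2, sub_zero]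

open scoped Classical in
/-- the set of the characters `psi ζ l` -/
noncomputable def PS (E : Subgroup G) (ζ : G → ℂ) [Fintype E] : Finset (IrrCharacter G) :=
  Finset.univ.filter fun χ => ∃ l : IrrCharacter E, l ≠ triv E ∧ (χ : G → ℂ) = psi ζ l

theorem mem_PS {χ : IrrCharacter G} : χ ∈ PS E ζ ↔ ∃ l : IrrCharacter E, l ≠ triv E ∧ (χ : G → ℂ) = psi ζ l := by
  classical
  rw [PS, Finset.mem_filter]
  exact ⟨fun h => h.2, fun h => ⟨Finset.mem_univ _, h⟩⟩

include Z in
theorem card_irr_E : Fintype.card (IrrCharacter E) = Nat.card E := by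
  have h2 : (Fintype.card (IrrCharacter E) : ℂ) = (Nat.card E : ℂ) := by
    rw [← CharBasic.sum_degree_sq, Finset.sum_congr rfl fun i _ => by rw [lin Z.T i, one_pow], Finset.sum_const,
      Finset.card_univ, nsmul_eq_mul, mul_one]
  exact_mod_cast h2

include Z in
theorem card_PS : Nat.card E - 1 ≤ 2 * (PS E ζ).card := by
  classical
  let f : IrrCharacter E → (G → ℂ) := fun l => psi ζ l
  let S : Finset (IrrCharacter E) := Finset.univ.erase (triv E)
  have h1 : S.card = Nat.card E - 1 := by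
    rw [Finset.card_erase_of_mem (Finset.mem_univ _), Finset.card_univ, card_irr_E Z]
  have h2 : (S.image f).card ≤ (PS E ζ).card := by
    have h3 : S.image f ⊆ (PS E ζ).image (fun χ : IrrCharacter G => (χ : G → ℂ)) := by
      intro y hy
      obtain ⟨l, hl, rfl⟩ := Finset.mem_image.1 hy
      have hl' : l ≠ triv E := Finset.ne_of_mem_erase hl
      exact Finset.mem_image.2 ⟨⟨psi ζ l, psi_irr Z l hl'⟩, mem_PS.2 ⟨l, hl', rfl⟩, rfl⟩
    exact (Finset.card_le_card h3).trans Finset.card_image_le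
  have h3 := Finset.card_le_mul_card_image (f := f) S 2 (by
    intro y hy
    obtain ⟨l, hl, rfl⟩ := Finset.mem_image.1 hy
    have hl' : l ≠ triv E := Finset.ne_of_mem_erase hl
    refine (Finset.card_le_card (t := {l, bar l}) ?_).trans Finset.card_le_two
    intro m hm
    rw [Finset.mem_filter] at hm
    have hm' : m ≠ triv E := Finset.ne_of_mem_erase hm.1
    have h4 := psi_inner Z l m hl' hm'
    have h5 : psi ζ m = psi ζ l := hm.2
    rw [h5, (psi_irr Z l hl').classInner_self] at h4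
    rw [Finset.mem_insert, Finset.mem_singleton]
    by_contra hcon
    push Not at hcon
    rw [if_neg (Ne.symm hcon.1), if_neg (fun h => hcon.2 (by rw [h, bar_bar]))] at h4
    norm_num at h4)
  rw [h1] at h3
  omega

include L in
/-- the square is determined -/
theorem square (hE3 : 3 ≤ Nat.card E) (hΛ1 : Λ 1 = (Nat.card E : ℂ)) (ht : 2 * Nat.card E + 1 ≤ p) :
    p = 2 * Nat.card E + 1 ∧ 2 * (PS E ζ).card + 1 = Nat.card E ∧ th Λ = (fun _ => 1) + ∑ χ ∈ PS E ζ, (χ : G → ℂ) := by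
  classical
  have hch := th_char L.irr
  have h1 : th Λ 1 = ((Nat.card E ^ 2 : ℕ) : ℂ) := by
    change Λ 1 * conj (Λ 1) = _
    rw [hΛ1, Complex.conj_natCast]; push_cast; ring
  have htr : triv G ∉ PS E ζ := by
    intro h
    obtain ⟨l, hl, h2⟩ := mem_PS.1 h
    have h3 := congrFun h2 1
    rw [psi_one Z] at h3
    have h4 : (1 : ℂ) = ((p + 1 : ℕ) : ℂ) := h3
    have h5 : 1 = p + 1 := by exact_mod_cast h4
    have := Z.h5
    omega
  have hdeg : ∀ χ ∈ PS E ζ, charDegree (χ : G → ℂ) = p + 1 := by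
    intro χ hχ
    obtain ⟨l, hl, h2⟩ := mem_PS.1 hχ
    have h3 := BlockDeg.charDegree_cast_irr χ
    rw [h2, psi_one Z] at h3
    rw [h2]
    exact_mod_cast h3
  have hm : ∀ χ ∈ PS E ζ, 1 ≤ mlt (th Λ) χ := by
    intro χ hχ
    obtain ⟨l, hl, h2⟩ := mem_PS.1 hχ
    obtain ⟨m, hm⟩ := psi_th Z L l hl
    rw [← h2, mlt_spec hch] at hm
    have : mlt (th Λ) χ = 1 + m := by exact_mod_cast hm
    omega
  have hm1 : mlt (th Λ) (triv G) = 1 := by
    have h2 := mlt_spec hch (triv G)
    rw [coe_triv, th_triv L.irr] at h2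
    exact_mod_cast h2.symm
  have hle := degree_le hch h1 (insert (triv G) (PS E ζ))
  rw [Finset.sum_insert htr, hm1, deg_triv, one_mul] at hle
  have hsum : (PS E ζ).card * (p + 1) ≤ ∑ χ ∈ PS E ζ, mlt (th Λ) χ * charDegree (χ : G → ℂ) := by
    rw [← smul_eq_mul, ← Finset.sum_const]
    refine Finset.sum_le_sum fun χ hχ => ?_
    rw [hdeg χ hχ]
    exact Nat.le_mul_of_pos_left _ (hm χ hχ)
  have hK := card_PS Z
  obtain ⟨k, hk⟩ := Z.odd
  have hk1 : 1 ≤ k := by omega
  set K := (PS E ζ).card with hKdef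
  have hKk : k ≤ K := by omega
  have h2 : K * (p + 1) ≤ 4 * k ^ 2 + 4 * k := by
    have h3 : 1 + K * (p + 1) ≤ Nat.card E ^ 2 := le_trans (by omega) hle
    rw [hk] at h3
    have h4 : (2 * k + 1) ^ 2 = 4 * k ^ 2 + 4 * k + 1 := by ring
    omega
  have hp4 : 4 * k + 4 ≤ p + 1 := by omega
  have hKe : K = k := by
    by_contra hne
    have h3 : k + 1 ≤ K := by omega
    have h4 : (k + 1) * (4 * k + 4) ≤ K * (p + 1) := Nat.mul_le_mul h3 hp4
    nlinarith
  have hpe : p + 1 = 4 * k + 4 := by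
    by_contra hne
    have h3 : 4 * k + 5 ≤ p + 1 := by omega
    have h4 : k * (4 * k + 5) ≤ K * (p + 1) := Nat.mul_le_mul hKk h3
    nlinarith
  have htot : ∑ χ ∈ PS E ζ, mlt (th Λ) χ * charDegree (χ : G → ℂ) = K * (p + 1) := by
    apply le_antisymm _ hsum
    have h3 : Nat.card E ^ 2 = 1 + K * (p + 1) := by rw [hk, hKe, hpe]; ring
    omega
  have hm' : ∀ χ ∈ PS E ζ, mlt (th Λ) χ = 1 := by
    intro χ hχ
    by_contra hne
    have h3 : 2 ≤ mlt (th Λ) χ := by have := hm χ hχ; omega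
    have h4 : K * (p + 1) < ∑ χ ∈ PS E ζ, mlt (th Λ) χ * charDegree (χ : G → ℂ) := by
      rw [← smul_eq_mul, ← Finset.sum_const]
      refine Finset.sum_lt_sum (fun ξ hξ => ?_) ⟨χ, hχ, ?_⟩
      · rw [hdeg ξ hξ]
        exact Nat.le_mul_of_pos_left _ (hm ξ hξ)
      · rw [hdeg χ hχ]
        nlinarith
    omega
  refine ⟨by omega, by omega, ?_⟩
  have h3 := sat hch h1 (insert (triv G) (PS E ζ)) (by
    rw [Finset.sum_insert htr, hm1, deg_triv, htot, hk, hKe, hpe]; ring)
  rw [Finset.sum_insert htr, hm1, coe_triv, Nat.cast_one, one_smul] at h3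
  rw [h3]
  congr 1
  refine Finset.sum_congr rfl fun χ hχ => ?_
  rw [hm' χ hχ, Nat.cast_one, one_smul]

end Cfsg.Agent.Lib.H15Lam
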