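import Cfsg.Agent.Lib.H15Lam
import Cfsg.Agent.Lib.H15Cnt

set_option autoImplicit false
set_option linter.all false

/-!
# The order of the group
-/

namespace Cfsg.Agent.Lib.H15Ord

open Cfsg Cfsg.Agent.Lib.CharBasic Cfsg.Agent.Lib.BlockThird Cfsg.Agent.Lib.H15TIc Cfsg.Agent.Lib.H15TateG
  Cfsg.Agent.Lib.H15RedC Cfsg.Agent.Lib.H15Psi Cfsg.Agent.Lib.BRCore Cfsg.Agent.Lib.BRPerm Cfsg.Agent.Lib.H15Lam
  Cfsg.Agent.Lib.H15Cnt
open scoped ComplexConjugate

universe u

variable {G : Type u} [Group G] [Fintype G] {p : ℕ} [hp : Fact p.Prime] {P N E M : Subgroup G} {x : G} {ζ : G → ℂ}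
  (Z : Cz p P N E M x ζ) [Fintype E] {Λ : G → ℂ} (L : Lm Z Λ)

/-- squared absolute value -/
noncomputable def rr (Λ : G → ℂ) (g : G) : ℝ := Complex.normSq (Λ g)

omit [Fintype E] in
theorem th_eq (g : G) : th Λ g = (rr Λ g : ℂ) := Complex.mul_conj _

include Z in
theorem sing_of_AA {g : G} (hg : g ∈ AA P) : p ∣ orderOf g := by
  obtain ⟨hg1, y, hy⟩ := mem_AA.1 hg
  have h1 : y⁻¹ * g * y ≠ 1 := by
    intro h
    apply hg1
    have : g = y * (y⁻¹ * g * y) * y⁻¹ := by group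
    rw [this, h]; group
  have h2 := BRPerm.order_of_mem Z.D.cardP hy h1
  have h3 : y⁻¹ * g * y = (MulAut.conj y⁻¹) g := by rw [MulAut.conj_apply, inv_inv]
  rw [h3, MulEquiv.orderOf_eq] at h2
  rw [h2]

include L in
theorem r_E {g : G} (hg : g ∈ AA E) : rr Λ g = 0 := by
  obtain ⟨hg1, y, hy⟩ := mem_AA.1 hg
  have h1 : y⁻¹ * g * y ≠ 1 := by
    intro h
    apply hg1
    have : g = y * (y⁻¹ * g * y) * y⁻¹ := by group
    rw [this, h]; group
  have h2 := lam_E Z L hy h1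
  have h3 := L.irr.isClassFunction g y⁻¹
  rw [inv_inv] at h3
  rw [rr, ← h3, h2, map_zero]

theorem disj : Disjoint (AA E) (AA P) ∧ (1 : G) ∉ AA E ∧ (1 : G) ∉ AA P ↔
    Disjoint (AA E) (AA P) ∧ True := by
  constructor
  · rintro ⟨h, -, -⟩; exact ⟨h, trivial⟩
  · rintro ⟨h, -⟩
    exact ⟨h, fun h' => (mem_AA.1 h').1 rfl, fun h' => (mem_AA.1 h').1 rfl⟩

include Z in
theorem disj' : Disjoint (AA E) (AA P) := by
  classical
  rw [Finset.disjoint_left]
  intro g hE hP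
  have h1 := sing_of_AA Z hP
  obtain ⟨hg1, y, hy⟩ := mem_AA.1 hE
  apply not_sing_E Z hy
  have h3 : y⁻¹ * g * y = (MulAut.conj y⁻¹) g := by rw [MulAut.conj_apply, inv_inv]
  rw [h3, MulEquiv.orderOf_eq]
  exact h1

open scoped Classical in
/-- the remaining elements -/
noncomputable def RR (E P : Subgroup G) : Finset G := ((Finset.univ.erase 1) \ AA E) \ AA P

theorem mem_RR {g : G} : g ∈ RR E P ↔ g ≠ 1 ∧ g ∉ AA E ∧ g ∉ AA P := by
  classical
  rw [RR, Finset.mem_sdiff, Finset.mem_sdiff, Finset.mem_erase]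
  simp [and_assoc]

include Z in
theorem sum_split (F : G → ℝ) : ∑ g, F g = F 1 + ∑ g ∈ AA E, F g + ∑ g ∈ AA P, F g + ∑ g ∈ RR E P, F g := by
  classical
  rw [← Finset.add_sum_erase _ _ (Finset.mem_univ (1 : G))]
  have h1 : AA E ⊆ Finset.univ.erase (1 : G) := fun g hg => Finset.mem_erase.2 ⟨(mem_AA.1 hg).1, Finset.mem_univ _⟩
  have h2 : AA P ⊆ Finset.univ.erase (1 : G) \ AA E := fun g hg => Finset.mem_sdiff.2
    ⟨Finset.mem_erase.2 ⟨(mem_AA.1 hg).1, Finset.mem_univ _⟩, fun h => (Finset.disjoint_left.1 (disj' Z)) h hg⟩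
  rw [← Finset.sum_sdiff h1, ← Finset.sum_sdiff h2, RR]
  ring

variable {K : ℕ} (hth : th Λ = (fun _ => 1) + ∑ χ ∈ PS E ζ, (χ : G → ℂ))

include Z in
theorem psi_AP (l : IrrCharacter E) {g : G} (hg : g ∈ AA P) : psi ζ l g = 1 := psi_sing Z l (sing_of_AA Z hg)

include Z hth in
theorem r_P {g : G} (hg : g ∈ AA P) : rr Λ g = 1 + (PS E ζ).card := by
  have h1 := th_eq (Λ := Λ) g
  rw [hth, Pi.add_apply, Finset.sum_apply, Finset.sum_congr rfl (g := fun _ => (1 : ℂ))] at h1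
  · rw [Finset.sum_const, nsmul_eq_mul, mul_one] at h1
    exact_mod_cast h1.symm
  · intro χ hχ
    obtain ⟨l, hl, h2⟩ := mem_PS.1 hχ
    rw [h2, psi_AP Z l hg]

include Z hth in
theorem r_R {g : G} (hg : g ∈ RR E P) {z : ℤ} (hz : ζ g = z) : rr Λ g = 1 + (PS E ζ).card * (1 + z) := by
  have h1 := th_eq (Λ := Λ) g
  rw [hth, Pi.add_apply, Finset.sum_apply, Finset.sum_congr rfl (g := fun _ => (1 + z : ℂ))] at h1
  · rw [Finset.sum_const, nsmul_eq_mul] at h1
    exact_mod_cast h1.symm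
  · intro χ hχ
    obtain ⟨l, hl, h2⟩ := mem_PS.1 hχ
    obtain ⟨hg1, hgE, -⟩ := mem_RR.1 hg
    rw [h2, psi, Pi.sub_apply, Pi.add_apply, ff_zero l, hz, sub_zero]
    intro y hy
    exact hgE (mem_AA.2 ⟨hg1, y, hy⟩)

include hth in
theorem th_norm (htr : triv G ∉ PS E ζ) : classInner (th Λ) (th Λ) = 1 + (PS E ζ).card := by
  classical
  have h1 : ∀ χ ∈ PS E ζ, classInner (fun _ : G => (1 : ℂ)) (χ : G → ℂ) = 0 := by
    intro χ hχ
    have := irr_orthonormal (triv G) χ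
    rwa [if_neg (fun h => htr (by rw [h]; exact hχ)), coe_triv] at this
  have h2 : ∀ χ ∈ PS E ζ, classInner (χ : G → ℂ) (fun _ : G => (1 : ℂ)) = 0 := by
    intro χ hχ
    rw [← conj_classInner, h1 χ hχ, map_zero]
  rw [hth, classInner_add_left, classInner_add_right, classInner_add_right, inner_triv_triv, classInner_sum_right,
    classInner_sum_left, classInner_sum_left, Finset.sum_congr rfl h1, Finset.sum_congr rfl h2, Finset.sum_const_zero,
    add_zero, zero_add]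
  congr 1
  have h3 : ∀ χ ∈ PS E ζ, classInner (χ : G → ℂ) (∑ ξ ∈ PS E ζ, (ξ : G → ℂ)) = 1 := by
    intro χ hχ
    rw [classInner_sum_right, Finset.sum_congr rfl fun ξ _ => irr_orthonormal χ ξ, Finset.sum_ite_eq, if_pos hχ]
  rw [Finset.sum_congr rfl h3, Finset.sum_const, nsmul_eq_mul, mul_one]

include L in
theorem sum_r : ∑ g, rr Λ g = Fintype.card G := by
  have h1 := th_triv L.irr
  rw [classInner_def, Nat.card_eq_fintype_card] at h1
  have hG : (Fintype.card G : ℂ) ≠ 0 := by exact_mod_cast Fintype.card_ne_zero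
  have h2 : ∑ g : G, th Λ g * conj (1 : ℂ) = Fintype.card G := by
    field_simp at h1
    exact h1
  have h3 : ((∑ g, rr Λ g : ℝ) : ℂ) = ((Fintype.card G : ℝ) : ℂ) := by
    push_cast
    rw [← h2]
    exact Finset.sum_congr rfl fun g _ => by rw [map_one, mul_one, th_eq]
  exact_mod_cast h3

include hth in
theorem sum_r2 (htr : triv G ∉ PS E ζ) : ∑ g, rr Λ g ^ 2 = (1 + (PS E ζ).card) * Fintype.card G := by
  have h1 := th_norm hth htr
  rw [classInner_def, Nat.card_eq_fintype_card] at h1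
  have hG : (Fintype.card G : ℂ) ≠ 0 := by exact_mod_cast Fintype.card_ne_zero
  have h2 : ∑ g : G, th Λ g * conj (th Λ g) = (1 + (PS E ζ).card) * Fintype.card G := by
    rw [inv_mul_eq_iff_eq_mul₀ hG] at h1
    rw [h1]; ring
  have h3 : ((∑ g, rr Λ g ^ 2 : ℝ) : ℂ) = (((1 + (PS E ζ).card) * Fintype.card G : ℝ) : ℂ) := by
    push_cast
    rw [← h2]
    exact Finset.sum_congr rfl fun g _ => by rw [th_eq, Complex.conj_ofReal]; ring
  exact_mod_cast h3

include L hth in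
/-- the order -/
theorem order_eq (hE5 : 5 ≤ Nat.card E) (hΛ1 : Λ 1 = (Nat.card E : ℂ)) (hpe : p = 2 * Nat.card E + 1)
    (hKe : 2 * (PS E ζ).card + 1 = Nat.card E) (hfaith : ∀ g, ζ g = p → g = 1) (hint : ∀ g, ∃ z : ℤ, ζ g = z)
    (hcardN : Nat.card N = p * Nat.card E) (hME : ∀ m ∈ M, ∀ h ∈ E, m⁻¹ * h * m ∈ E) :
    Nat.card G = 2 * Nat.card E * p * (Nat.card E + 1) := by
  classical
  have htr : triv G ∉ PS E ζ := by
    intro h
    obtain ⟨l, hl, h2⟩ := mem_PS.1 h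
    have h3 := congrFun h2 1
    rw [psi_one Z] at h3
    have h4 : (1 : ℂ) = ((p + 1 : ℕ) : ℂ) := h3
    have h5 : 1 = p + 1 := by exact_mod_cast h4
    have := Z.h5
    omega
  set K := (PS E ζ).card with hK
  have hK2 : 2 ≤ K := by omega
  -- counts
  have cE := ti_count E M hME Z.T.ti
  have cP := ti_count P N (fun s hs t ht => by
    have := Z.D.norm s⁻¹ (N.inv_mem hs) t ht
    rwa [inv_inv] at this) (fun g t ht ht1 hg => Z.D.free g t ht ht1 (Z.D.PN hg))
  rw [Z.T.cardM] at cE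
  rw [hcardN, Z.D.cardP] at cP
  have hGN : Fintype.card G = Nat.card G := Nat.card_eq_fintype_card.symm
  set e := Nat.card E with he
  set g₀ := Nat.card G with hg₀
  set aE := (AA E).card with haE
  set aP := (AA P).card with haP
  have e1 : (aE : ℝ) * (2 * e) = g₀ * (2 * K) := by
    have : e - 1 = 2 * K := by omega
    rw [this] at cE
    exact_mod_cast cE
  have e2 : (aP : ℝ) * p = g₀ * 2 := by
    have h1 : p - 1 = 2 * e := by omega
    rw [h1] at cP
    have h2 : (aP * p) * e = (g₀ * 2) * e := by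
      rw [mul_assoc, cP]; ring
    have h3 := Nat.eq_of_mul_eq_mul_right (by omega) h2
    exact_mod_cast h3
  have hpR : (p : ℝ) = 2 * e + 1 := by exact_mod_cast hpe
  have heR : (e : ℝ) = 2 * K + 1 := by exact_mod_cast hKe.symm
  have hr1 : rr Λ 1 = (e : ℝ) ^ 2 := by
    rw [rr, hΛ1, Complex.normSq_natCast]; ring
  -- integrality on R
  have hR1 : ∀ g ∈ RR E P, 1 ≤ rr Λ g ∧ rr Λ g < (e : ℝ) ^ 2 := by
    intro g hg
    obtain ⟨z, hz⟩ := hint g
    have h1 := r_R Z hth hg hz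
    rw [← hK] at h1
    have h0 : 0 ≤ rr Λ g := Complex.normSq_nonneg _
    have h2 : ((1 + K * (1 + z) : ℤ) : ℝ) = rr Λ g := by rw [h1]; push_cast; ring
    have h3 : 0 ≤ 1 + (K : ℤ) * (1 + z) := by
      rw [← h2] at h0; exact_mod_cast h0
    have h4 : 1 ≤ 1 + (K : ℤ) * (1 + z) := by
      by_contra hcon
      push Not at hcon
      have h5 : 1 + (K : ℤ) * (1 + z) = 0 := by omega
      have h6 : (K : ℤ) ∣ 1 := ⟨-(1 + z), by linear_combination h5⟩
      have h7 := Int.le_of_dvd one_pos h6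
      omega
    refine ⟨by rw [← h2]; exact_mod_cast h4, ?_⟩
    have hle : rr Λ g ≤ (e : ℝ) ^ 2 := by
      obtain ⟨n, ρ, hρ, hρΛ⟩ := L.irr
      have h5 := CharValues.norm_character_le ρ g
      rw [hρΛ, Module.finrank_fin_fun] at h5
      have h6 : (n : ℂ) = e := by
        rw [← hΛ1, ← hρΛ, Representation.char_one, Module.finrank_fin_fun]
      have h7 : n = e := by exact_mod_cast h6
      rw [rr, Complex.normSq_eq_norm_sq]
      rw [h7] at h5
      exact pow_le_pow_left₀ (norm_nonneg _) h5 2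
    refine lt_of_le_of_ne hle fun h5 => ?_
    have h6 : 1 + (K : ℤ) * (1 + z) = (2 * K + 1) ^ 2 := by
      have h7 : ((1 + K * (1 + z) : ℤ) : ℝ) = (((2 * K + 1) ^ 2 : ℤ) : ℝ) := by
        rw [h2, h5, heR]; push_cast; ring
      exact_mod_cast h7
    have h7 : (K : ℤ) * (1 + z) = K * (4 * K + 4) := by linear_combination h6
    have h8 : 1 + z = 4 * (K : ℤ) + 4 := mul_left_cancel₀ (by omega) h7
    have h9 : z = (p : ℤ) := by
      have : (p : ℤ) = 4 * K + 3 := by omega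
      rw [this]; linarith
    exact (mem_RR.1 hg).1 (hfaith g (by rw [hz, h9]; push_cast; rfl))
  -- the vanishing sum
  let w : G → ℝ := fun g => (rr Λ g - 1) * ((e : ℝ) ^ 2 - rr Λ g)
  have hw : ∑ g, w g = -(K : ℝ) * g₀ := by
    have h1 : ∀ g, w g = ((e : ℝ) ^ 2 + 1) * rr Λ g - rr Λ g ^ 2 - (e : ℝ) ^ 2 := by intro g; simp only [w]; ring
    rw [Finset.sum_congr rfl fun g _ => h1 g, Finset.sum_sub_distrib, Finset.sum_sub_distrib, ← Finset.mul_sum,
      sum_r Z L, sum_r2 hth htr, ← hK, Finset.sum_const, Finset.card_univ, nsmul_eq_mul, hGN]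
    ring
  have hsplit := sum_split Z w
  have hwE : ∑ g ∈ AA E, w g = -(e : ℝ) ^ 2 * aE := by
    rw [Finset.sum_congr rfl (g := fun _ => -(e : ℝ) ^ 2), Finset.sum_const, nsmul_eq_mul]
    · ring
    · intro g hg
      simp only [w]; rw [r_E Z L hg]; ring
  have hwP : ∑ g ∈ AA P, w g = K * ((e : ℝ) ^ 2 - 1 - K) * aP := by
    rw [Finset.sum_congr rfl (g := fun _ => K * ((e : ℝ) ^ 2 - 1 - K)), Finset.sum_const, nsmul_eq_mul]
    · ring
    · intro g hg
      simp only [w]; rw [r_P Z hth hg, ← hK]; ring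
  have hw1 : w 1 = 0 := by simp only [w]; rw [hr1]; ring
  have hep : (0 : ℝ) < e := by exact_mod_cast (by omega : 0 < e)
  have hpp : (0 : ℝ) < p := by rw [hpR]; positivity
  have hzero : ∑ g ∈ RR E P, w g = 0 := by
    rw [hw, hw1, hwE, hwP] at hsplit
    have h1 : ∑ g ∈ RR E P, w g = -(K : ℝ) * g₀ + (e : ℝ) ^ 2 * aE - K * ((e : ℝ) ^ 2 - 1 - K) * aP := by linarith
    rw [h1]
    have h2 : (e : ℝ) * aE = g₀ * K := by linarith
    have h3 : (e : ℝ) ^ 2 - 1 - K = K * p := by rw [hpR, heR]; ring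
    have h4 : (e : ℝ) ^ 2 * aE = e * (g₀ * K) := by rw [← h2]; ring
    have h5 : K * ((K : ℝ) * p) * aP = K * K * (g₀ * 2) := by rw [← e2]; ring
    rw [h3, h4, h5, heR]; ring
  have hR : ∀ g ∈ RR E P, rr Λ g = 1 := by
    intro g hg
    have h1 := (Finset.sum_eq_zero_iff_of_nonneg (fun g hg => by
      simp only [w]
      have := hR1 g hg
      exact mul_nonneg (by linarith) (by linarith))).1 hzero g hg
    have h2 := hR1 g hg
    simp only [w] at h1
    rcases mul_eq_zero.1 h1 with h3 | h3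
    · linarith
    · linarith
  -- the total sum
  have hs1 := sum_split Z (rr Λ)
  have hs2 := sum_split Z (fun _ => (1 : ℝ))
  have t1 : ∑ g ∈ AA E, rr Λ g = 0 := Finset.sum_eq_zero fun g hg => r_E Z L hg
  have t2 : ∑ g ∈ AA P, rr Λ g = (1 + K) * aP := by
    rw [Finset.sum_congr rfl (g := fun _ => (1 + K : ℝ)), Finset.sum_const, nsmul_eq_mul]
    · ring
    · intro g hg
      rw [r_P Z hth hg]
  have t3 : ∑ g ∈ RR E P, rr Λ g = (RR E P).card := by
    rw [Finset.sum_congr rfl (g := fun _ => (1 : ℝ)), Finset.sum_const, nsmul_eq_mul, mul_one]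
    intro g hg; exact hR g hg
  rw [sum_r Z L, hr1, t1, t2, t3, hGN] at hs1
  simp only [Finset.sum_const, nsmul_eq_mul, mul_one, Finset.card_univ] at hs2
  rw [hGN] at hs2
  have hfin : (g₀ : ℝ) = 2 * e * p * (e + 1) := by
    have h1 : (e : ℝ) ^ 2 - 1 - aE + K * aP = 0 := by linarith
    have h2 : ((e : ℝ) ^ 2 - 1 - aE + K * aP) * (2 * e * p) = 0 := by rw [h1, zero_mul]
    have h3 : ((e : ℝ) ^ 2 - 1) * (2 * e * p) - (g₀ * (2 * K)) * p + K * (g₀ * 2) * (2 * e) = 0 := by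
      rw [← e1, ← e2]; linarith
    have h4 : 2 * (K : ℝ) * (g₀ - 2 * e * p * (e + 1)) = 0 := by
      have h5 : ((e : ℝ) ^ 2 - 1) = 2 * K * (e + 1) := by rw [heR]; ring
      rw [h5] at h3
      rw [hpR] at h3 ⊢
      linear_combination -h3
    have hK0 : (K : ℝ) ≠ 0 := by
      have : K ≠ 0 := by omega
      exact_mod_cast this
    have h5 := (mul_eq_zero.1 h4).resolve_left (mul_ne_zero two_ne_zero hK0)
    linarith
  exact_mod_cast hfin

end Cfsg.Agent.Lib.H15Ord
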