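import Cfsg.Agent.Lib.H15Gs
import Cfsg.Agent.Lib.H15Ord

set_option autoImplicit false
set_option linter.all false

/-!
# The case `|E|` odd
-/

namespace Cfsg.Agent.Lib.H15Odd

open Cfsg Cfsg.Agent.Lib.BlockRing Cfsg.Agent.Lib.BlockGA Cfsg.Agent.Lib.BlockIdem
open Cfsg.Agent.Lib.DefOneLoc Cfsg.Agent.Lib.DefOneOrd Cfsg.Agent.Lib.CharBasic Cfsg.Agent.Lib.DefOneGram
open Cfsg.Agent.Lib.DefOne Cfsg.Agent.Lib.BlockThird Cfsg.Agent.Lib.DefOnePrin Cfsg.Agent.Lib.BRB0
open Cfsg.Agent.Lib.BRPerm Cfsg.Agent.Lib.H15TateG Cfsg.Agent.Lib.H15Gs Cfsg.Agent.Lib.H15TIc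
  Cfsg.Agent.Lib.H15Psi Cfsg.Agent.Lib.H15Lam Cfsg.Agent.Lib.H15Ord Cfsg.Agent.Lib.BRCore
open scoped ComplexConjugate

universe u

variable {G : Type u} [Group G] [Fintype G] {p : ℕ} [hp : Fact p.Prime]
  {P N C E M : Subgroup G} {D : Loc p P N C} {ζ : G → ℂ}

section sumY

variable [Fintype C]

theorem sum_lam_unit (i : (ZMod p)ˣ) : ∑ c : C, lam D (i : ZMod p) c = 0 := by
  classical
  have h1 : lam D (i : ZMod p) ⟨D.u, D.PC D.uP⟩ ≠ 1 := by
    rw [lam, D.l_u, mul_one]
    intro h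
    have h2 := ZMod.injective_stdAddChar (h.trans (AddChar.map_zero_eq_one ZMod.stdAddChar).symm)
    exact i.ne_zero h2
  have h2 : lam D (i : ZMod p) ⟨D.u, D.PC D.uP⟩ * ∑ c : C, lam D (i : ZMod p) c = ∑ c : C, lam D (i : ZMod p) c := by
    rw [Finset.mul_sum]
    refine Fintype.sum_equiv (Equiv.mulLeft (⟨D.u, D.PC D.uP⟩ : C)) _ _ fun c => ?_
    rw [Equiv.coe_mulLeft, lam_mul]
  have h3 : (lam D (i : ZMod p) ⟨D.u, D.PC D.uP⟩ - 1) * ∑ c : C, lam D (i : ZMod p) c = 0 := by
    rw [sub_mul, h2, one_mul, sub_self]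
  exact (mul_eq_zero.1 h3).resolve_left (sub_ne_zero.2 h1)

theorem sum_Y (B : B0 D) (q : Tau D) (hCl : ∀ c : C, D.l c = 0 → c = 1) :
    ∑ c : C, (B.Y q : G → ℂ) c = (B.Y q : G → ℂ) 1 - B.s * Nat.card (κu D).range := by
  classical
  rw [← Finset.add_sum_erase _ _ (Finset.mem_univ (1 : C)), Subgroup.coe_one, sub_eq_add_neg]
  congr 1
  have h1 : ∀ c ∈ Finset.univ.erase (1 : C), (B.Y q : G → ℂ) c =
      B.s * ∑ i : (ZMod p)ˣ, if (i : Tau D) = q then lam D (i : ZMod p) c else 0 := by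
    intro c hc
    exact B.valY q c (fun h => Finset.ne_of_mem_erase hc (hCl c h))
  rw [Finset.sum_congr rfl h1, ← Finset.mul_sum, Finset.sum_comm]
  have h2 : ∀ i : (ZMod p)ˣ, ∑ c ∈ Finset.univ.erase (1 : C), (if (i : Tau D) = q then lam D (i : ZMod p) c else 0) =
      if (i : Tau D) = q then -1 else 0 := by
    intro i
    by_cases hi : (i : Tau D) = q
    · simp only [if_pos hi]
      have h3 := sum_lam_unit (D := D) i
      rw [← Finset.add_sum_erase _ _ (Finset.mem_univ (1 : C)), lam_one] at h3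
      linear_combination h3
    · simp only [if_neg hi, Finset.sum_const_zero]
  rw [Finset.sum_congr rfl fun i _ => h2 i, ← Finset.sum_filter, Finset.sum_const, card_fiber, nsmul_eq_mul]
  ring

end sumY

variable (H : Bs D E M ζ)

include H

theorem cardN : Nat.card N = p * Nat.card E := by
  classical
  haveI : Fintype P := Fintype.ofFinite _
  haveI : Fintype N := Fintype.ofFinite _
  haveI : Fintype E := Fintype.ofFinite _
  have h1 := sum_N H.dat (fun _ => (1 : ℕ))
  simp only [Finset.sum_const, Finset.card_univ, smul_eq_mul, mul_one] at h1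
  rw [← Nat.card_eq_fintype_card, ← Nat.card_eq_fintype_card, ← Nat.card_eq_fintype_card, H.hP] at h1
  rw [h1, mul_comm]

theorem CP : C = P := le_antisymm H.hCP D.PC

theorem card_rng : Nat.card (κu D).range = Nat.card E := by
  have h0 : Nat.card C * C.relIndex N = Nat.card N := by
    have h1 := Subgroup.relIndex_mul_relIndex ⊥ _ _ bot_le D.CN
    rwa [Subgroup.relIndex_bot_left, Subgroup.relIndex_bot_left] at h1
  rw [card_range]
  rw [cardN H, CP H, H.hP] at h0
  rw [CP H]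
  exact Nat.eq_of_mul_eq_mul_left hp.out.pos h0

theorem hCl (c : C) (hc : D.l c = 0) : c = 1 := by
  by_contra h
  have h1 : (c : G) ≠ 1 := fun h' => h (Subtype.ext h')
  have h2 := (D.l_reg c).1 hc
  rw [BRPerm.order_of_mem H.hP (H.hCP c.2) h1] at h2
  exact h2 dvd_rfl

theorem zeta_real (g : G) : conj (ζ g) = ζ g := by
  have h1 := H.uniq _ H.irr.conj (by rw [H.one, Complex.conj_natCast])
  exact congrFun h1 g

theorem zeta_int (g : G) : ∃ z : ℤ, ζ g = z := by
  have h1 : ∀ k : ℕ, k.Coprime (Nat.card G) → ζ (g ^ k) = ζ g := by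
    intro k hk
    have h2 := H.uniq _ (CharGalois.isIrrCharacter_pow H.irr hk) (by rw [one_pow, H.one])
    exact congrFun h2 g
  obtain ⟨q, hq⟩ := CharGalois.exists_rat_of_pow H.irr.isCharacter g h1
  obtain ⟨y, hy⟩ := CharCentral.exists_int_of_isIntegral_rat (H76Char.isIntegral_of_isCharacter H.irr.isCharacter g) q hq
  exact ⟨y, by first | exact hy | (rw [hq]; exact_mod_cast hy)⟩

theorem norm_E : ∀ m ∈ M, ∀ h ∈ E, m⁻¹ * h * m ∈ E := by
  intro m hm h hh
  rw [H.MM] at hm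
  have := (Subgroup.mem_normalizer_iff.1 ((Subgroup.normalizer (E : Set G)).inv_mem hm) h).1 hh
  rwa [inv_inv] at this

theorem EM : E ≤ M := by rw [H.MM]; exact Subgroup.le_normalizer

theorem cz (hodd : Odd (Nat.card E)) : Cz p P N E M D.u ζ where
  D := H.dat
  T :=
    { EM := EM H
      cardM := H.cardM
      ti := H.ti
      inv := H15TIm.inverts H.perfect (EM H) hodd H.cardM H.comm (norm_E H) H.ti
      comm := H.comm }
  h5 := H.h5
  odd := hodd
  irr := H.irr
  one := H.one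
  sing := fun g hg => H.sing hg
  onE := by
    classical
    intro h hh h1
    haveI : Fintype P := Fintype.ofFinite _
    obtain ⟨μ, hμ, hμ1, hμE⟩ := H.mu
    have h2 := hμE ⟨h, hh⟩ (fun h' => h1 (congrArg Subtype.val h'))
    change ζ h = _ at h2
    have h3 := zeta_real H h
    have h4 := hμ.mul_conj_of_linear hμ1 ⟨h, hh⟩
    rw [← h2, h3] at h4
    have h5 : (μ ⟨h, hh⟩) ^ Nat.card E = 1 := by
      obtain ⟨f, hf⟩ := hμ.exists_hom hμ1
      rw [hf, ← Units.val_pow_eq_pow_val, ← map_pow, pow_card_eq_one', map_one, Units.val_one]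
    rw [← h2] at h5
    obtain ⟨k, hk⟩ := hodd
    rw [hk, pow_succ, pow_mul, sq, h4, one_pow, one_mul] at h5
    exact h5
  real := zeta_real H
  fus := fun h hh h1 y hy => by
    obtain ⟨z, -, hz⟩ := H.fus h hh h1 y hy
    exact ⟨z, hz⟩

theorem E3 (hodd : Odd (Nat.card E)) : 3 ≤ Nat.card E := by
  have h1 : Nat.card E ≠ 1 := fun h => H.E1 (Subgroup.card_eq_one.1 h)
  obtain ⟨k, hk⟩ := hodd
  omega

theorem tau2 (hodd : Odd (Nat.card E)) : 2 ≤ Nat.card (Tau D) ∧ 2 * Nat.card E + 1 ≤ p := by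
  have h1 := p_eq D
  rw [card_rng H] at h1
  have h2 : 2 ≤ Nat.card (Tau D) := by
    by_contra hcon
    have h3 : Nat.card (Tau D) = 1 := by
      have : 0 < Nat.card (Tau D) := Nat.card_pos
      omega
    rw [h3, mul_one] at h1
    have h4 : Odd p := hp.out.odd_of_ne_two (by have := H.h5; omega)
    obtain ⟨k, hk⟩ := hodd
    obtain ⟨j, hj⟩ := h4
    omega
  refine ⟨h2, ?_⟩
  have h3 : Nat.card E * 2 ≤ Nat.card E * Nat.card (Tau D) := Nat.mul_le_mul_left _ h2
  omega

theorem triv_X [Fintype C] (B : B0 D) (hodd : Odd (Nat.card E)) : triv G ∈ B.X := by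
  exact (triv_mem_X B (by have := (tau2 H hodd).1; omega)).1

/-- the exceptional character -/
theorem exists_Lm [Fintype C] [Fintype E] (B : B0 D) (hodd : Odd (Nat.card E)) :
    ∃ Λ : G → ℂ, Lm (cz H hodd) Λ ∧ Λ 1 = (Nat.card E : ℂ) := by
  classical
  haveI : Fintype P := Fintype.ofFinite _
  haveI : Fintype N := Fintype.ofFinite _
  have hE3 := E3 H hodd
  obtain ⟨ht, hpe⟩ := tau2 H hodd
  let q : Tau D := ((1 : (ZMod p)ˣ) : Tau D)
  have hdeg := BlockDeg.charDegree_cast_irr (B.Y q)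
  obtain ⟨k, hk⟩ := B.degY q
  rw [card_rng H] at hk
  have hnd : ¬ p ∣ charDegree (B.Y q : G → ℂ) := by
    intro h
    have h1 : (p : ℤ) ∣ B.s * Nat.card E := by
      have h2 : (p : ℤ) ∣ (charDegree (B.Y q : G → ℂ) : ℤ) := by exact_mod_cast h
      rw [hk] at h2
      exact (dvd_add_right (Dvd.intro_left k rfl)).1 h2
    have h2 : (p : ℤ) ∣ Nat.card E := by
      rcases B.s_pm with h3 | h3 <;> rw [h3] at h1
      · rwa [one_mul] at h1
      · rwa [neg_one_mul, dvd_neg] at h1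
    exact H.pE (by exact_mod_cast h2)
  have L : Lm (cz H hodd) (B.Y q : G → ℂ) :=
    { irr := (B.Y q).2
      ne1 := by
        intro h
        apply B.disj q
        have : B.Y q = triv G := Subtype.ext h
        rw [this]; exact triv_X H B hodd
      neζ := by
        intro h
        apply hnd
        have h1 := hdeg
        rw [h, H.one] at h1
        rw [h]
        have : charDegree ζ = p := by exact_mod_cast h1
        rw [this]
      neψ := by
        intro l hl h
        have h1 := hdeg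
        rw [h, psi_one (cz H hodd)] at h1
        have h2 : charDegree (B.Y q : G → ℂ) = p + 1 := by rw [h]; exact_mod_cast h1
        rw [h2] at hk
        rcases B.s_pm with h3 | h3 <;> rw [h3] at hk
        · have h4 : (p : ℤ) ∣ (Nat.card E : ℤ) - 1 := ⟨1 - k, by push_cast at hk ⊢; linear_combination -hk⟩
          have h5 := Int.le_of_dvd (by omega) h4
          omega
        · have h4 : (p : ℤ) ∣ (Nat.card E : ℤ) + 1 := ⟨k - 1, by push_cast at hk ⊢; linear_combination hk⟩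
          have h5 := Int.le_of_dvd (by omega) h4
          omega }
  refine ⟨_, L, ?_⟩
  have h1 := sum_P (cz H hodd) L hdeg.symm hnd
  have h2 : ∑ y : P, (B.Y q : G → ℂ) y = ∑ c : C, (B.Y q : G → ℂ) c :=
    Fintype.sum_equiv (Equiv.setCongr (by rw [CP H])) _ _ fun _ => rfl
  rw [h2, sum_Y B q (hCl H), card_rng H, sub_eq_zero] at h1
  rcases B.s_pm with h3 | h3 <;> rw [h3] at h1
  · rw [h1]; push_cast; ring
  · exfalso
    rw [← hdeg] at h1
    have h4 : ((charDegree (B.Y q : G → ℂ) : ℤ) : ℂ) = ((-(Nat.card E : ℤ) : ℤ) : ℂ) := by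
      push_cast at h1 ⊢; linear_combination h1
    have h5 : (charDegree (B.Y q : G → ℂ) : ℤ) = -(Nat.card E : ℤ) := by exact_mod_cast h4
    omega

/-- the main result of the odd case -/
theorem main [Fintype C] (B : B0 D) (hodd : Odd (Nat.card E)) (hfaith : ∀ g, ζ g = p → g = 1) :
    p = 2 * Nat.card E + 1 ∧ (5 ≤ Nat.card E → Nat.card G = 2 * Nat.card E * p * (Nat.card E + 1)) := by
  classical
  haveI : Fintype E := Fintype.ofFinite _
  obtain ⟨Λ, L, hΛ⟩ := exists_Lm H B hodd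
  obtain ⟨h1, h2, h3⟩ := square (cz H hodd) L (E3 H hodd) hΛ (tau2 H hodd).2
  exact ⟨h1, fun h5 => order_eq (cz H hodd) L h3 h5 hΛ h1 h2 hfaith (zeta_int H) (cardN H) (norm_E H)⟩

end Cfsg.Agent.Lib.H15Odd
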