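import Cfsg.Agent.Lib.H15Bs
import Cfsg.Agent.S4701
import Cfsg.Agent.S0806

set_option autoImplicit false
set_option linter.all false

/-!
# The case `|E|` odd: conclusion
-/

namespace Cfsg.Agent.Lib.H15OddFin

open Cfsg Cfsg.Agent.Lib.BlockRing Cfsg.Agent.Lib.BlockGA Cfsg.Agent.Lib.BlockIdem
open Cfsg.Agent.Lib.DefOneLoc Cfsg.Agent.Lib.DefOneOrd Cfsg.Agent.Lib.CharBasic Cfsg.Agent.Lib.DefOneGram
open Cfsg.Agent.Lib.DefOne Cfsg.Agent.Lib.BlockThird Cfsg.Agent.Lib.DefOnePrin Cfsg.Agent.Lib.BRB0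
open Cfsg.Agent.Lib.BRPerm Cfsg.Agent.Lib.H15TateG Cfsg.Agent.Lib.H15Gs Cfsg.Agent.Lib.BRCore Cfsg.Agent.Lib.H15Bs
open scoped ComplexConjugate

universe u v

variable {G : Type u} [Group G] [Fintype G] {p : ℕ} [hp : Fact p.Prime]
variable {α : Type v} [MulAction G α] [Fintype α] [FaithfulSMul G α]
variable {P N C E M : Subgroup G} {D : Loc p P N C} {ζ : G → ℂ} (H : Bs D E M ζ)

include H

theorem E_lt : Nat.card E < p := by
  classical
  haveI : Fintype C := Fintype.ofFinite _
  have h1 := lt_p D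
  rwa [H15Odd.card_rng H] at h1

theorem G_ge : p ^ 2 + 1 ≤ Nat.card G := by
  have h1 : charDegree ((⟨ζ, H.irr⟩ : IrrCharacter G) : G → ℂ) = p := by
    have := BlockDeg.charDegree_cast_irr (⟨ζ, H.irr⟩ : IrrCharacter G)
    change ((charDegree ζ : ℕ) : ℂ) = ζ 1 at this
    rw [H.one] at this
    exact_mod_cast this
  exact sq_lt h1 hp.out.one_lt.ne'

theorem not_normal : ¬ P.Normal := by
  intro h
  have h1 : N = ⊤ := by rw [H.NN]; exact Subgroup.normalizer_eq_top_iff.2 h
  have h2 := H15Odd.cardN H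
  rw [h1, Subgroup.card_top] at h2
  have h3 := G_ge H
  have h4 := E_lt H
  rw [h2] at h3
  nlinarith

theorem no_two (hα : Nat.card α = p) [MulAction.IsPretransitive G α] (K : Subgroup G) (hK : K.Normal) : Nat.card K ≠ 2 := by
  intro h
  haveI : MulAction.IsPreprimitive G α := MulAction.IsPreprimitive.of_prime_card (by rw [hα]; exact hp.out)
  have hK1 : K ≠ ⊥ := by
    rintro rfl
    rw [Subgroup.card_bot] at h
    omega
  have h1 := H15Deg2p.trans_of_normal (G := G) (α := α) hK1
  rw [hα, h] at h1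
  have := Nat.le_of_dvd (by norm_num) h1
  have := H.h5
  omega

/-- small order suffices -/
theorem of_small (hα : Nat.card α = p) [MulAction.IsPretransitive G α] (hodd : Odd (Nat.card E))
    (hpe : p = 2 * Nat.card E + 1) (hlt : Nat.card G < p ^ 3) :
    ∃ (F : Type) (_ : Field F) (_ : Fintype F), Fintype.card F = p ∧
      Nonempty (G ≃* Matrix.ProjectiveSpecialLinearGroup (Fin 2) F) := by
  obtain ⟨Q, hQ⟩ := H.syl
  have hQn : ¬ (Q : Subgroup G).Normal := by rw [hQ]; exact not_normal H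
  rcases Cfsg.Agent.S4701.result H.perfect p (p_dvd (G := G) hα) hlt Q hQn (fun K hK => no_two H hα K hK) with h | h
  · obtain ⟨F, i1, i2, h1, -, h2⟩ := h
    exact ⟨F, i1, i2, h1, h2⟩
  · exfalso
    obtain ⟨m, F, i1, i2, h1, h2, -, -⟩ := h
    have h3 : Nat.card E * 2 = 2 ^ m := by omega
    have h4 : Nat.card E ∣ 2 ^ m := ⟨2, h3.symm⟩
    obtain ⟨k, -, hk⟩ := (Nat.dvd_prime_pow Nat.prime_two).1 h4
    have h5 : 3 ≤ Nat.card E := H15Odd.E3 H hodd
    rcases Nat.eq_zero_or_pos k with h6 | h6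
    · rw [h6, pow_zero] at hk; omega
    · have h7 : Even (Nat.card E) := by
        rw [hk]; exact (Nat.even_pow.2 ⟨even_two, h6.ne'⟩)
      exact (Nat.not_even_iff_odd.2 hodd) h7

theorem odd_final [Fintype C] (B : B0 D) (hα : Nat.card α = p) [MulAction.IsPretransitive G α] (hodd : Odd (Nat.card E)) :
    (p = 7 ∨ p = 11) ∧ ∃ (F : Type) (_ : Field F) (_ : Fintype F), Fintype.card F = p ∧
      Nonempty (G ≃* Matrix.ProjectiveSpecialLinearGroup (Fin 2) F) := by
  classical
  obtain ⟨hpe, hord⟩ := H15Odd.main H B hodd (fun g hg => faith H hα g hg)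
  have hE3 := H15Odd.E3 H hodd
  by_cases hE5 : 5 ≤ Nat.card E
  · have h1 := hord hE5
    have hlt : Nat.card G < p ^ 3 := by
      rw [h1, hpe]
      have h2 : (2 * Nat.card E + 1) ^ 3 = (2 * Nat.card E * (2 * Nat.card E + 1) * (Nat.card E + 1)) +
        (2 * Nat.card E + 1) * (2 * Nat.card E ^ 2 + 2 * Nat.card E + 1) := by ring
      rw [h2]
      exact Nat.lt_add_of_pos_right (by positivity)
    obtain ⟨F, i1, i2, hF, ⟨e⟩⟩ := of_small H hα hodd hpe hlt
    refine ⟨Or.inr ?_, F, i1, i2, hF, ⟨e⟩⟩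
    by_contra h11
    have hq : p ∉ ({2, 3, 5, 7, 9, 11} : Finset ℕ) := by
      simp only [Finset.mem_insert, Finset.mem_singleton]
      omega
    have h2 := (Cfsg.Agent.S0806.result hF hq).1
    obtain ⟨a⟩ : Nonempty α := by
      have : 0 < Nat.card α := by rw [hα]; exact hp.out.pos
      exact (Nat.card_pos_iff.1 this).1
    have h3 : (MulAction.stabilizer G a).index = p := by
      rw [MulAction.index_stabilizer_of_transitive G a, hα]
    have h4 : ((MulAction.stabilizer G a).map e.toMonoidHom).index = p := by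
      rw [← h3]
      exact Subgroup.index_map_equiv _ e
    have h5 := h2 ((MulAction.stabilizer G a).map e.toMonoidHom) (by
      intro h
      rw [h, Subgroup.index_top] at h4
      exact hp.out.one_lt.ne h4)
    omega
  · have hE : Nat.card E = 3 := by
      obtain ⟨k, hk⟩ := hodd
      omega
    have h7 : p = 7 := by omega
    subst h7
    refine ⟨Or.inl rfl, of_small H hα hodd hpe ?_⟩
    by_contra hge
    push Not at hge
    obtain ⟨Q, hQ⟩ := H.syl
    have h1 := card_sylow_modEq_one 7 G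
    rw [Q.card_eq_index_normalizer] at h1
    have h2 : Nat.card (Subgroup.normalizer (Q : Set G)) * (Subgroup.normalizer (Q : Set G)).index = Nat.card G :=
      Subgroup.card_mul_index _
    have h3 : Nat.card (Subgroup.normalizer (Q : Set G)) = 21 := by
      have h4 : Subgroup.normalizer (Q : Set G) = N := by rw [H.NN, ← hQ]; rfl
      rw [h4, H15Odd.cardN H, hE]
    rw [h3] at h2
    have h4 : Nat.card G ∣ 5040 := card_dvd (G := G) hα
    rw [← h2] at h4 hge
    set n := (Subgroup.normalizer (Q : Set G)).index with hn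
    have h5 : n ∣ 240 := by
      have : (5040 : ℕ) = 21 * 240 := by norm_num
      rw [this] at h4
      exact Nat.dvd_of_mul_dvd_mul_left (by norm_num) h4
    have h6 : n = 120 := by
      have h7 : n ∈ Nat.divisors 240 := Nat.mem_divisors.2 ⟨h5, by norm_num⟩
      have h8 : Nat.divisors 240 = {1, 2, 3, 4, 5, 6, 8, 10, 12, 15, 16, 20, 24, 30, 40, 48, 60, 80, 120, 240} := by
        decide +kernel
      rw [h8] at h7
      simp only [Finset.mem_insert, Finset.mem_singleton] at h7
      unfold Nat.ModEq at h1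
      omega
    have h9 : 3 ^ (1 + 1) ∣ Nat.card G := by
      rw [← h2, h6]; norm_num
    have h10 := Sylow.prime_pow_dvd_card_normalizer (p := 3) h9 (H := E) (by rw [hE, pow_one])
    rw [← H.MM, H.cardM, hE] at h10
    norm_num at h10

end Cfsg.Agent.Lib.H15OddFin
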