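import Cfsg.Agent.Lib.DefOneGalois
import Cfsg.Agent.Lib.ColTools
import Cfsg.Agent.Lib.H15Fix
import Cfsg.Agent.Lib.BRInd

set_option autoImplicit false
set_option linter.all false

/-!
# Faithful characters of degree `p - 2` of a group with a Sylow subgroup of prime order: local structure
-/

namespace Cfsg.Agent.Lib.H15Pa

open Cfsg Cfsg.Agent.Lib.BlockRing Cfsg.Agent.Lib.BlockGA Cfsg.Agent.Lib.BlockIdem
open Cfsg.Agent.Lib.BlockSecond Cfsg.Agent.Lib.BlockNormP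
open Cfsg.Agent.Lib.DefOneLoc Cfsg.Agent.Lib.DefOneOrd Cfsg.Agent.Lib.CharBasic Cfsg.Agent.Lib.DefOneGram
open Cfsg.Agent.Lib.DefOneBlk Cfsg.Agent.Lib.DefOne Cfsg.Agent.Lib.DefOneGen Cfsg.Agent.Lib.DefOneGalois
open scoped ComplexConjugate
open ZMod (stdAddChar)

universe u

section idem

variable {G : Type u} [Group G] [Finite G] {p : ℕ} [hp : Fact p.Prime]

/-- an eigenvalue which does not occur -/
theorem eig_zero {χ : G → ℂ} (hχ : IsCharacter G χ) {u : G} (hu : u ^ p = 1) (b : ZMod p)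
    (h0 : ∑ k : ZMod p, χ (u ^ k.val) * stdAddChar (-(b * k)) = 0) (g : G) :
    ∑ k : ZMod p, χ (u ^ k.val * g) * stdAddChar (-(b * k)) = 0 := by
  classical
  obtain ⟨n, ρ, rfl⟩ := hχ
  have hp0 : (p : ℂ) ≠ 0 := by exact_mod_cast hp.out.ne_zero
  let A : Module.End ℂ (Fin n → ℂ) := ∑ k : ZMod p, stdAddChar (-(b * k)) • ρ (u ^ k.val)
  have hpow : ∀ k l : ZMod p, u ^ k.val * u ^ l.val = u ^ (k + l).val := by
    intro k l
    rw [← pow_add, ← ColTools.pow_val u hu (k.val + l.val)]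
    congr 2
    push_cast
    rw [ZMod.natCast_zmod_val, ZMod.natCast_zmod_val]
  have hAA : A * A = (p : ℂ) • A := by
    have h1 : ∀ k : ZMod p, (stdAddChar (-(b * k)) • ρ (u ^ k.val)) * A = A := by
      intro k
      change _ * (∑ l : ZMod p, stdAddChar (-(b * l)) • ρ (u ^ l.val)) = _
      rw [Finset.mul_sum]
      refine Fintype.sum_equiv (Equiv.addLeft k) _ _ fun l => ?_
      change _ = stdAddChar (-(b * (k + l))) • ρ (u ^ (k + l).val)
      rw [smul_mul_smul_comm, ← map_mul ρ, hpow, ← AddChar.map_add_eq_mul]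
      congr 2
      ring
    change (∑ k : ZMod p, stdAddChar (-(b * k)) • ρ (u ^ k.val)) * A = _
    rw [Finset.sum_mul, Finset.sum_congr rfl fun k _ => h1 k, Finset.sum_const, Finset.card_univ, ZMod.card,
      ← Nat.cast_smul_eq_nsmul ℂ]
  have hid : IsIdempotentElem ((p : ℂ)⁻¹ • A) := by
    change ((p : ℂ)⁻¹ • A) * ((p : ℂ)⁻¹ • A) = _
    rw [smul_mul_smul_comm, hAA, smul_smul]
    congr 1
    field_simp
  have htr : LinearMap.trace ℂ (Fin n → ℂ) A = 0 := by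
    rw [← h0]
    change LinearMap.trace ℂ (Fin n → ℂ) (∑ k : ZMod p, stdAddChar (-(b * k)) • ρ (u ^ k.val)) = _
    rw [map_sum]
    refine Finset.sum_congr rfl fun k _ => ?_
    rw [map_smul, smul_eq_mul, mul_comm]
    rfl
  have hA0 : A = 0 := by
    have h1 : (p : ℂ)⁻¹ • A = 0 := by
      apply LinearMap.IsIdempotentElem.eq_zero_of_trace_eq_zero hid
      rw [map_smul, htr, smul_zero]
    rcases smul_eq_zero.1 h1 with h2 | h2
    · exact absurd h2 (inv_ne_zero hp0)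
    · exact h2
  have h2 : ∑ k : ZMod p, ρ.character (u ^ k.val * g) * stdAddChar (-(b * k)) =
      LinearMap.trace ℂ (Fin n → ℂ) (A * ρ g) := by
    change _ = LinearMap.trace ℂ (Fin n → ℂ) ((∑ k : ZMod p, stdAddChar (-(b * k)) • ρ (u ^ k.val)) * ρ g)
    rw [Finset.sum_mul, map_sum]
    refine Finset.sum_congr rfl fun k _ => ?_
    rw [smul_mul_assoc, map_smul, smul_eq_mul, mul_comm, ← map_mul]
    rfl
  rw [h2, hA0, zero_mul, map_zero]

end idem

section star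

variable {G : Type u} [Group G] [Fintype G] {p : ℕ} [hp : Fact p.Prime] {P N C : Subgroup G}
  (D : Loc p P N C) [Fintype C] [Fintype N] {M : Ideal AlgInt}

omit [Fintype G] [Fintype C] [Fintype N] in
theorem up : D.u ^ p = 1 := by
  have h := pow_orderOf_eq_one D.u
  rwa [D.ordu] at h

/-- the element `u ^ k v` of `C` -/
def uv (k : ZMod p) (v : C) : C := ⟨D.u, D.PC D.uP⟩ ^ k.val * v

theorem l_uv (k : ZMod p) {v : C} (hv : D.l v = 0) : D.l (uv D k v) = k := by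
  rw [uv, D.l_mul, hv, add_zero]
  have h := DefOnePrin.l_pow D k.val
  have h2 : (⟨D.u, D.PC D.uP⟩ : C) ^ k.val = ⟨D.u ^ k.val, C.pow_mem (D.PC D.uP) _⟩ := Subtype.ext rfl
  rw [h2, h, ZMod.natCast_zmod_val]

omit [Fintype G] [Fintype C] [Fintype N] in
theorem coe_uv (k : ZMod p) (v : C) : (uv D k v : G) = D.u ^ k.val * v := rfl

theorem theta_uv {θ : IrrCharacter C} (ht : TrivOn D (θ : C → ℂ)) (k : ZMod p) (v : C) :
    (θ : C → ℂ) (uv D k v) = (θ : C → ℂ) v := by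
  rw [uv]
  exact theta_mul D θ.2.isCharacter ht (x := ⟨D.u, D.PC D.uP⟩ ^ k.val) (by
    change D.u ^ k.val ∈ P
    exact P.pow_mem D.uP _) v

/-- Fourier coefficients of the characters of the block -/
theorem star (hM : IsPModular p M) (hpC : ¬ p ^ 2 ∣ Nat.card C)
    (hC : C = P ⊔ Subgroup.centralizer (P : Set G)) (hN : N = Subgroup.normalizer (P : Set G))
    {θ : IrrCharacter C} (ht : TrivOn D (θ : C → ℂ)) {B : Set (IrrCharacter G)}
    (hDG : IsDefectGroup p M B P) (hind : IsInducedBlock M C (blockOf M (θ : C → ℂ)) B)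
    {χ : IrrCharacter G} (hχ : χ ∈ B) {v : C} (hv : D.l v = 0) (b : ZMod p) :
    (Nat.card (inN D θ) : ℂ) * ∑ k : ZMod p, (χ : G → ℂ) (D.u ^ k.val * v) * stdAddChar (-(b * k)) =
      p * ∑ n : N, (cjI D n θ : C → ℂ) v * dm D (χ : G → ℂ) θ (b * (D.κ n)⁻¹) +
      (Nat.card (inN D θ) : ℂ) * (χ : G → ℂ) v -
        (∑ n : N, (cjI D n θ : C → ℂ) v) * ∑ i : ZMod p, dm D (χ : G → ℂ) θ i := by
  classical
  have h1 : ∀ k : ZMod p, k ≠ 0 → (Nat.card (inN D θ) : ℂ) * (χ : G → ℂ) (D.u ^ k.val * v) =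
      ∑ n : N, (cjI D n θ : C → ℂ) v * ∑ i : ZMod p, dm D (χ : G → ℂ) θ i * stdAddChar (i * D.κ n * k) := by
    intro k hk
    have h2 := value_general D hM hpC hC hN ht hDG hind hχ (c := uv D k v) (by rw [l_uv D k hv]; exact hk)
    rw [coe_uv] at h2
    rw [h2]
    refine Finset.sum_congr rfl fun n _ => ?_
    rw [theta_uv D (trivOn_cjI D n ht)]
    congr 1
    refine Finset.sum_congr rfl fun i _ => ?_
    rw [lam, l_uv D k hv]
  set Gk : ZMod p → ℂ := fun k =>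
    ∑ n : N, (cjI D n θ : C → ℂ) v * ∑ i : ZMod p, dm D (χ : G → ℂ) θ i * stdAddChar (i * D.κ n * k) with hGk
  have h3 : ∑ k : ZMod p, Gk k * stdAddChar (-(b * k)) =
      p * ∑ n : N, (cjI D n θ : C → ℂ) v * dm D (χ : G → ℂ) θ (b * (D.κ n)⁻¹) := by
    rw [hGk]
    simp only [Finset.sum_mul]
    rw [Finset.sum_comm, Finset.mul_sum]
    refine Finset.sum_congr rfl fun n _ => ?_
    have h4 : ∀ k : ZMod p, (cjI D n θ : C → ℂ) v * (∑ i : ZMod p, dm D (χ : G → ℂ) θ i * stdAddChar (i * D.κ n * k)) *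
        stdAddChar (-(b * k)) = (cjI D n θ : C → ℂ) v *
          ((∑ j : ZMod p, dm D (χ : G → ℂ) θ (j * (D.κ n)⁻¹) * stdAddChar (j * k)) * stdAddChar (-(b * k))) := by
      intro k
      rw [mul_assoc]
      congr 2
      refine Fintype.sum_equiv (Equiv.mulRight₀ (D.κ n) (D.κ_ne n)) _ _ fun i => ?_
      change _ = dm D (χ : G → ℂ) θ (i * D.κ n * (D.κ n)⁻¹) * stdAddChar (i * D.κ n * k)
      rw [mul_inv_cancel_right₀ (D.κ_ne n)]
    rw [Finset.sum_congr rfl fun k _ => h4 k, ← Finset.mul_sum,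
      ColTools.dft (fun j => dm D (χ : G → ℂ) θ (j * (D.κ n)⁻¹)) b]
    ring
  have h5 : Gk 0 = (∑ n : N, (cjI D n θ : C → ℂ) v) * ∑ i : ZMod p, dm D (χ : G → ℂ) θ i := by
    rw [hGk, Finset.sum_mul]
    refine Finset.sum_congr rfl fun n _ => ?_
    congr 1
    refine Finset.sum_congr rfl fun i _ => ?_
    rw [mul_zero, AddChar.map_zero_eq_one, mul_one]
  rw [← h5, ← h3, Finset.mul_sum, ← Finset.add_sum_erase _ _ (Finset.mem_univ (0 : ZMod p)),
    ← Finset.add_sum_erase (Finset.univ : Finset (ZMod p)) (fun k => Gk k * stdAddChar (-(b * k)))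
      (Finset.mem_univ (0 : ZMod p))]
  have h6 : ∀ k ∈ Finset.univ.erase (0 : ZMod p),
      (Nat.card (inN D θ) : ℂ) * ((χ : G → ℂ) (D.u ^ k.val * v) * stdAddChar (-(b * k))) =
      Gk k * stdAddChar (-(b * k)) := by
    intro k hk
    have h7 := h1 k (Finset.ne_of_mem_erase hk)
    rw [← mul_assoc, h7]
  rw [Finset.sum_congr rfl h6, mul_zero, neg_zero, AddChar.map_zero_eq_one, mul_one, mul_one, ZMod.val_zero, pow_zero,
    one_mul]
  ring

end star

end Cfsg.Agent.Lib.H15Pa
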