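import Cfsg.Agent.Lib.H15Pa

set_option autoImplicit false
set_option linter.all false

/-!
# Faithful characters of degree `p - 2`: the local structure (second part)
-/

namespace Cfsg.Agent.Lib.H15Pa

open Cfsg Cfsg.Agent.Lib.BlockRing Cfsg.Agent.Lib.BlockGA Cfsg.Agent.Lib.BlockIdem
open Cfsg.Agent.Lib.BlockSecond Cfsg.Agent.Lib.BlockNormP
open Cfsg.Agent.Lib.DefOneLoc Cfsg.Agent.Lib.DefOneOrd Cfsg.Agent.Lib.CharBasic Cfsg.Agent.Lib.DefOneGram
open Cfsg.Agent.Lib.DefOneBlk Cfsg.Agent.Lib.DefOne Cfsg.Agent.Lib.DefOneGen Cfsg.Agent.Lib.DefOneGalois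
open scoped ComplexConjugate
open ZMod (stdAddChar)

universe u

variable {G : Type u} [Group G] [Fintype G] {p : ℕ} [hp : Fact p.Prime] {P N C : Subgroup G}
  (D : Loc p P N C) [Fintype C] [Fintype N] {M : Ideal AlgInt}

theorem card_rangeN : Nat.card (κu D).range = C.relIndex N := DefOnePrin.card_range D

theorem card_rangeE (θ : IrrCharacter C) : Nat.card (κu D).range = Nat.card (HT D θ) * (inN D θ).index := by
  rw [card_rangeN, relIndex_N D θ]

theorem range_dvd : Nat.card (κu D).range ∣ p - 1 := by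
  have h1 := Subgroup.card_subgroup_dvd_card (κu D).range
  rwa [Nat.card_eq_fintype_card (α := (ZMod p)ˣ), ZMod.card_units] at h1

theorem mem_inN_iff (θ : IrrCharacter C) (n : N) : n ∈ inN D θ ↔ κu D n ∈ HT D θ := by
  constructor
  · intro h; exact ⟨n, h, rfl⟩
  · rintro ⟨t, ht, hn⟩
    have h1 : κu D (n * t⁻¹) = 1 := by rw [map_mul, map_inv, hn, mul_inv_cancel]
    have h2 : ((n * t⁻¹ : N) : G) ∈ C := (BRInd.kappa_one_iff D).1 h1
    have h3 : n * t⁻¹ ∈ inN D θ := cjI_of_mem D h2 θ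
    have h4 := (inN D θ).mul_mem h3 ht
    rwa [inv_mul_cancel_right] at h4

open scoped Classical in
theorem cnt (θ : IrrCharacter C) (b i0 : (ZMod p)ˣ) (n0 : N)
    (h0 : ((b * (κu D n0)⁻¹ : (ZMod p)ˣ) : (ZMod p)ˣ ⧸ HT D θ) = i0) (f : N → ℂ)
    (hf : ∀ m n : N, m ∈ inN D θ → f (m * n) = f n) :
    ∑ n : N, (if ((b * (κu D n)⁻¹ : (ZMod p)ˣ) : (ZMod p)ˣ ⧸ HT D θ) = i0 then f n else 0) =
      Nat.card (inN D θ) * f n0 := by
  haveI : Fintype (inN D θ) := Fintype.ofFinite _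
  have key : ∀ n : N, ((b * (κu D n)⁻¹ : (ZMod p)ˣ) : (ZMod p)ˣ ⧸ HT D θ) = i0 ↔ n * n0⁻¹ ∈ inN D θ := by
    intro n
    rw [← h0, QuotientGroup.eq, mem_inN_iff, map_mul, map_inv]
    have : (b * (κu D n)⁻¹)⁻¹ * (b * (κu D n0)⁻¹) = κu D n * (κu D n0)⁻¹ := by
      rw [mul_inv_rev, inv_inv]
      calc κu D n * b⁻¹ * (b * (κu D n0)⁻¹) = κu D n * (b⁻¹ * b) * (κu D n0)⁻¹ := by
            simp only [mul_assoc]
        _ = _ := by rw [inv_mul_cancel, mul_one]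
    rw [this]
  rw [← Finset.sum_filter, Nat.card_eq_fintype_card, ← Finset.card_univ, ← nsmul_eq_mul, ← Finset.sum_const]
  symm
  refine Finset.sum_bij (fun m _ => (m : N) * n0) ?_ ?_ ?_ ?_
  · intro m _
    rw [Finset.mem_filter]
    refine ⟨Finset.mem_univ _, (key _).2 ?_⟩
    rw [mul_inv_cancel_right]
    exact m.2
  · intro a _ b _ hab
    exact Subtype.ext (mul_right_cancel hab)
  · intro n hn
    rw [Finset.mem_filter] at hn
    exact ⟨⟨n * n0⁻¹, (key n).1 hn.2⟩, Finset.mem_univ _, by simp⟩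
  · intro m _
    exact (hf m n0 m.2).symm

/-- counting form at the identity -/
theorem star1 (hM : IsPModular p M) (hpC : ¬ p ^ 2 ∣ Nat.card C)
    (hC : C = P ⊔ Subgroup.centralizer (P : Set G)) (hN : N = Subgroup.normalizer (P : Set G))
    {θ : IrrCharacter C} (ht : TrivOn D (θ : C → ℂ)) {B : Set (IrrCharacter G)}
    (hDG : IsDefectGroup p M B P) (hind : IsInducedBlock M C (blockOf M (θ : C → ℂ)) B)
    {χ : IrrCharacter G} (hχ : χ ∈ B) {c : ZMod p → ℕ}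
    (hc : ∀ k : ℕ, (χ : G → ℂ) (D.u ^ k) = ∑ j, (c j : ℂ) * stdAddChar (j * (k : ZMod p))) (b : ZMod p) :
    (Nat.card (inN D θ) : ℂ) * (p * c b) =
      p * ((θ : C → ℂ) 1 * ∑ n : N, dm D (χ : G → ℂ) θ (b * (D.κ n)⁻¹)) +
      (Nat.card (inN D θ) : ℂ) * (χ : G → ℂ) 1 -
        (Nat.card N : ℂ) * (θ : C → ℂ) 1 * ∑ i : ZMod p, dm D (χ : G → ℂ) θ i := by
  have h := star D hM hpC hC hN ht hDG hind hχ (v := 1) (l_one D) b
  have h1 : ∀ n : N, (cjI D n θ : C → ℂ) 1 = (θ : C → ℂ) 1 := by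
    intro n; rw [cjI_apply, map_one]
  simp only [h1] at h
  rw [Subgroup.coe_one] at h
  simp only [mul_one] at h
  have h2 : ∑ k : ZMod p, (χ : G → ℂ) (D.u ^ k.val) * stdAddChar (-(b * k)) = p * c b := by
    rw [← ColTools.dft (fun j => (c j : ℂ)) b]
    refine Finset.sum_congr rfl fun k _ => ?_
    rw [hc, ZMod.natCast_zmod_val]
  rw [h2, ← Finset.mul_sum, Finset.sum_const, Finset.card_univ, ← Nat.card_eq_fintype_card, nsmul_eq_mul] at h
  exact h

end Cfsg.Agent.Lib.H15Pa
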