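import Cfsg.Agent.Lib.H15Pb
import Cfsg.Agent.Lib.ExtClosedChar
import Cfsg.Agent.Lib.H76Char

set_option autoImplicit false
set_option linter.all false

/-!
# Faithful characters of degree `p - 2`: the local structure (third part)
-/

namespace Cfsg.Agent.Lib.H15Pa

open Cfsg Cfsg.Agent.Lib.BlockRing Cfsg.Agent.Lib.BlockGA Cfsg.Agent.Lib.BlockIdem
open Cfsg.Agent.Lib.BlockSecond Cfsg.Agent.Lib.BlockNormP
open Cfsg.Agent.Lib.DefOneLoc Cfsg.Agent.Lib.DefOneOrd Cfsg.Agent.Lib.CharBasic Cfsg.Agent.Lib.DefOneGram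
open Cfsg.Agent.Lib.DefOneBlk Cfsg.Agent.Lib.DefOne Cfsg.Agent.Lib.DefOneGen Cfsg.Agent.Lib.DefOneGalois
open scoped ComplexConjugate
open ZMod (stdAddChar)

universe u

variable {G : Type u} [Group G] [Fintype G] {p : ℕ} [hp : Fact p.Prime] {P N C : Subgroup G}

open scoped Classical in
/-- a block together with its exceptional characters -/
structure Blk (D : Loc p P N C) [Fintype C] (M : Ideal AlgInt) (θ : IrrCharacter C) (B : Set (IrrCharacter G)) where
  hM : IsPModular p M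
  hpC : ¬ p ^ 2 ∣ Nat.card C
  hC : C = P ⊔ Subgroup.centralizer (P : Set G)
  hN : N = Subgroup.normalizer (P : Set G)
  ht : TrivOn D (θ : C → ℂ)
  hDG : IsDefectGroup p M B P
  hind : IsInducedBlock M C (blockOf M (θ : C → ℂ)) B
  card : Nat.card B = Nat.card (HT D θ) + Nat.card ((ZMod p)ˣ ⧸ HT D θ)
  Y : (ZMod p)ˣ ⧸ HT D θ → B
  s : B → ℤ
  hY : Function.Injective Y
  hs : ∀ χ, s χ = 1 ∨ s χ = -1
  hs1 : ∀ χ, χ ∉ Set.range Y → ∀ i : (ZMod p)ˣ, dm D ((χ : IrrCharacter G) : G → ℂ) θ i = s χ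
  hs2 : ∀ (i : (ZMod p)ˣ) q, dm D ((Y q : IrrCharacter G) : G → ℂ) θ i =
        if (i : (ZMod p)ˣ ⧸ HT D θ) = q then (s (Y q) : ℂ) else 0

open scoped Classical in
theorem exists_Blk (hsq : ¬ p ^ 2 ∣ Nat.card G) (hdiv : p ∣ Nat.card G) (χ : IrrCharacter G)
    (hχ : ¬ p ∣ charDegree (χ : G → ℂ)) : ∃ (Q : Sylow p G)
      (D : Loc p (Q : Subgroup G) (Subgroup.normalizer ((Q : Subgroup G) : Set G))
      (Subgroup.centralizer ((Q : Subgroup G) : Set G))) (M : Ideal AlgInt)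
      (θ : IrrCharacter (Subgroup.centralizer ((Q : Subgroup G) : Set G))) (B : Set (IrrCharacter G)),
      Nat.card Q = p ∧ χ ∈ B ∧ Nonempty (Blk D M θ B) := by
  obtain ⟨M, hM⟩ := H76Char.exists_isPModular p
  have := isPrime hM
  have hB : IsPBlock M (blockOf M (χ : G → ℂ)) := isPBlock_blockOf χ
  have hmem := mem_blockOf_self (M := M) χ
  have hd : 0 < blockDefect p (blockOf M (χ : G → ℂ)) := by
    have h1 := BlockDeg.card_le_blockDefect_add (p := p) hmem
    have h2 : (charDegree (χ : G → ℂ)).factorization p = 0 := Nat.factorization_eq_zero_of_not_dvd hχ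
    have h3 : 0 < (Nat.card G).factorization p := hp.out.factorization_pos_of_dvd Nat.card_pos.ne' hdiv
    have h4 : BlockDeg.nuDeg p (χ : G → ℂ) = (charDegree (χ : G → ℂ)).factorization p := rfl
    omega
  obtain ⟨Q, D, θ, hQ, hDG, ht, hind⟩ := exists_local hM hsq hB hd
  obtain ⟨hcard, Y, s, hY, hs, hs1, hs2⟩ := main_general D Q rfl rfl rfl hM hQ ht hDG hind
  refine ⟨Q, D, M, θ, _, hQ, hmem, ⟨⟨hM, fun h => hsq (h.trans (Subgroup.card_subgroup_dvd_card _)),
    (sup_eq_right.2 D.PC).symm, rfl, ht, hDG, hind, hcard, Y, s, hY, hs, hs1, hs2⟩⟩⟩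

/-- the integral form of the degree -/
theorem one_eq (χ : IrrCharacter G) : (χ : G → ℂ) 1 = charDegree (χ : G → ℂ) := (BlockDeg.charDegree_cast_irr χ).symm

section main

variable {D : Loc p P N C} [Fintype C] {M : Ideal AlgInt} {θ : IrrCharacter C} {B : Set (IrrCharacter G)}
  (bk : Blk D M θ B) {ζ : IrrCharacter G} (hζ : ζ ∈ B) (hdeg : charDegree (ζ : G → ℂ) = p - 2)
  (hfaith : ∀ g : G, (ζ : G → ℂ) g = (ζ : G → ℂ) 1 → g = 1) (hnn : ¬ P.Normal) (hp3 : 3 < p)
  {c : ZMod p → ℕ}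
  (hc : ∀ k : ℕ, (ζ : G → ℂ) (D.u ^ k) = ∑ j, (c j : ℂ) * stdAddChar (j * (k : ZMod p)))

include hdeg hc in
theorem sum_c : ∑ j, c j = p - 2 := by
  have h := hc 0
  rw [pow_zero, one_eq, hdeg] at h
  simp only [Nat.cast_zero, mul_zero, AddChar.map_zero_eq_one, mul_one] at h
  exact_mod_cast h.symm

include hfaith hc hp3 hdeg in
/-- `0` is not the only eigenvalue -/
theorem not_all_zero (h0 : ∀ b : ZMod p, b ≠ 0 → c b = 0) : False := by
  have h1 : ∀ k : ℕ, (ζ : G → ℂ) (D.u ^ k) = c 0 := by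
    intro k
    rw [hc, Finset.sum_eq_single 0]
    · rw [zero_mul, AddChar.map_zero_eq_one, mul_one]
    · intro b _ hb
      rw [h0 b hb, Nat.cast_zero, zero_mul]
    · intro h; exact absurd (Finset.mem_univ _) h
  have h2 : D.u = 1 := by
    apply hfaith
    have := h1 1
    rw [pow_one] at this
    rw [this, ← h1 0, pow_zero]
  have h3 := D.ordu
  rw [h2, orderOf_one] at h3
  omega

include hfaith in
theorem mem_center_of_norm {x : G} (hx : ‖(ζ : G → ℂ) x‖ = ‖(ζ : G → ℂ) 1‖) : x ∈ Subgroup.center G := by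
  rw [Subgroup.mem_center_iff]
  intro g
  have h1 := ExtClosedChar.char_comm_of_norm ζ.2.isCharacter hx g
  have h2 := hfaith _ h1
  have h3 : g * x = x * g := by
    have : g * x * g⁻¹ * x⁻¹ * (x * g) = g * x := by group
    rw [h2, one_mul] at this
    exact this.symm
  exact h3

include bk in
theorem sum_dm_Y (q : (ZMod p)ˣ ⧸ HT D θ) : ∑ i : ZMod p, dm D ((bk.Y q : IrrCharacter G) : G → ℂ) θ i =
    (bk.s (bk.Y q) : ℂ) * Nat.card (HT D θ) := by
  classical
  rw [DefOnePrin.sum_zmod_units, dm, sub_self, zero_add, Finset.sum_congr rfl (fun i _ => bk.hs2 i q),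
    ← Finset.sum_filter, Finset.sum_const, nsmul_eq_mul, mul_comm, card_fiber]

include bk hζ hdeg hfaith hc hp3 in
theorem mem_range : ∃ q, ζ = bk.Y q := by
  classical
  letI : Fintype N := Fintype.ofFinite N
  by_contra hcon
  have hY : (⟨ζ, hζ⟩ : B) ∉ Set.range bk.Y := by
    rintro ⟨q, hq⟩
    exact hcon ⟨q, (congrArg Subtype.val hq).symm⟩
  have hdm := bk.hs1 _ hY
  have hin : (Nat.card (inN D θ) : ℂ) ≠ 0 := by exact_mod_cast Nat.card_pos.ne'
  have hp0 : (p : ℂ) ≠ 0 := by exact_mod_cast hp.out.ne_zero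
  have h1 : ∀ b b' : ZMod p, b ≠ 0 → b' ≠ 0 → c b = c b' := by
    intro b b' hb hb'
    have e : ∀ b : ZMod p, b ≠ 0 → ∀ n : N, dm D (ζ : G → ℂ) θ (b * (D.κ n)⁻¹) = bk.s ⟨ζ, hζ⟩ := fun b hb n =>
      hdm (Units.mk0 (b * (D.κ n)⁻¹) (mul_ne_zero hb (inv_ne_zero (D.κ_ne n))))
    have h2 := star1 D bk.hM bk.hpC bk.hC bk.hN bk.ht bk.hDG bk.hind hζ hc b
    have h3 := star1 D bk.hM bk.hpC bk.hC bk.hN bk.ht bk.hDG bk.hind hζ hc b'
    rw [Finset.sum_congr rfl fun n _ => e b hb n] at h2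
    rw [Finset.sum_congr rfl fun n _ => e b' hb' n, ← h2] at h3
    have h4 := mul_left_cancel₀ hp0 (mul_left_cancel₀ hin h3)
    exact_mod_cast h4.symm
  have h2 := sum_c hdeg hc
  apply not_all_zero hdeg hfaith hp3 hc
  intro b hb
  by_contra hne
  have h3 : ∑ j : ZMod p, c j ≥ ∑ j ∈ Finset.univ.erase (0 : ZMod p), 1 := by
    rw [← Finset.add_sum_erase _ _ (Finset.mem_univ (0 : ZMod p))]
    refine le_trans (Finset.sum_le_sum fun j hj => ?_) (Nat.le_add_left _ _)
    rw [h1 j b (Finset.ne_of_mem_erase hj) hb]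
    omega
  rw [Finset.sum_const, Finset.card_erase_of_mem (Finset.mem_univ _), Finset.card_univ, ZMod.card, smul_eq_mul, mul_one,
    h2] at h3
  omega

end main

section two

variable {D : Loc p P N C} [Fintype C] {M : Ideal AlgInt} {θ : IrrCharacter C} {B : Set (IrrCharacter G)}
  (bk : Blk D M θ B) (i0 : (ZMod p)ˣ) 
  (hdeg : charDegree ((bk.Y (i0 : (ZMod p)ˣ ⧸ HT D θ) : IrrCharacter G) : G → ℂ) = p - 2)
  (hfaith : ∀ g : G, ((bk.Y (i0 : (ZMod p)ˣ ⧸ HT D θ) : IrrCharacter G) : G → ℂ) g =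
    ((bk.Y (i0 : (ZMod p)ˣ ⧸ HT D θ) : IrrCharacter G) : G → ℂ) 1 → g = 1) (hnn : ¬ P.Normal) (hp3 : 3 < p)
  {c : ZMod p → ℕ}
  (hc : ∀ k : ℕ, ((bk.Y (i0 : (ZMod p)ˣ ⧸ HT D θ) : IrrCharacter G) : G → ℂ) (D.u ^ k) =
    ∑ j, (c j : ℂ) * stdAddChar (j * (k : ZMod p)))

/-- the condition `A_b` -/
def Ab (D : Loc p P N C) (θ : IrrCharacter C) (i0 b : (ZMod p)ˣ) : Prop :=
  ∃ n : N, ((b * (κu D n)⁻¹ : (ZMod p)ˣ) : (ZMod p)ˣ ⧸ HT D θ) = i0

theorem HT_le (θ : IrrCharacter C) : HT D θ ≤ (κu D).range := by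
  rintro _ ⟨n, -, rfl⟩
  exact ⟨n, rfl⟩

theorem Ab_iff (θ : IrrCharacter C) (i0 b : (ZMod p)ˣ) : Ab D θ i0 b ↔ i0⁻¹ * b ∈ (κu D).range := by
  constructor
  · rintro ⟨n, hn⟩
    have h1 : (b * (κu D n)⁻¹)⁻¹ * i0 ∈ HT D θ := QuotientGroup.eq.1 hn
    have h2 := (κu D).range.inv_mem (HT_le θ h1)
    have h3 := (κu D).range.mul_mem h2 ⟨n, rfl⟩
    have h4 : ((b * (κu D n)⁻¹)⁻¹ * i0)⁻¹ * κu D n = i0⁻¹ * b := by group
    rwa [h4] at h3
  · rintro ⟨n, hn⟩
    refine ⟨n, ?_⟩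
    rw [hn]
    congr 1
    rw [mul_inv_rev, inv_inv, mul_comm b⁻¹, mul_left_comm, mul_inv_cancel, mul_one]

open scoped Classical in
include hdeg hc in
theorem star2 (b : (ZMod p)ˣ) : (p : ℤ) * c b =
    (if Ab D θ i0 b then (p : ℤ) * charDegree (θ : C → ℂ) * bk.s (bk.Y i0) else 0) + ((p : ℤ) - 2) -
      Nat.card (κu D).range * charDegree (θ : C → ℂ) * bk.s (bk.Y i0) := by
  letI : Fintype N := Fintype.ofFinite N
  have hin : (Nat.card (inN D θ) : ℂ) ≠ 0 := by exact_mod_cast Nat.card_pos.ne'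
  have hp0 : (p : ℂ) ≠ 0 := by exact_mod_cast hp.out.ne_zero
  have h2 := star1 D bk.hM bk.hpC bk.hC bk.hN bk.ht bk.hDG bk.hind (bk.Y i0).2 hc b
  rw [sum_dm_Y bk, one_eq (bk.Y i0 : IrrCharacter G), hdeg, one_eq θ, ← Subgroup.card_mul_index (inN D θ)] at h2
  have h3 : ∑ n : N, dm D ((bk.Y (i0 : (ZMod p)ˣ ⧸ HT D θ) : IrrCharacter G) : G → ℂ) θ (b * (D.κ n)⁻¹) =
      if Ab D θ i0 b then Nat.card (inN D θ) * (bk.s (bk.Y i0) : ℂ) else 0 := by
    have h4 : ∀ n : N, dm D ((bk.Y (i0 : (ZMod p)ˣ ⧸ HT D θ) : IrrCharacter G) : G → ℂ) θ (b * (D.κ n)⁻¹) =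
        if ((b * (κu D n)⁻¹ : (ZMod p)ˣ) : (ZMod p)ˣ ⧸ HT D θ) = i0 then (bk.s (bk.Y i0) : ℂ) else 0 := by
      intro n
      rw [← bk.hs2]
      congr 1
    rw [Finset.sum_congr rfl fun n _ => h4 n]
    split_ifs with hA
    · obtain ⟨n0, hn0⟩ := hA
      exact cnt D θ b i0 n0 hn0 (fun _ => (bk.s (bk.Y i0) : ℂ)) (fun _ _ _ => rfl)
    · refine Finset.sum_eq_zero fun n _ => if_neg fun h => hA ⟨n, h⟩
  rw [h3] at h2
  have h5 : ((Nat.card (inN D θ) * (inN D θ).index : ℕ) : ℂ) * (charDegree (θ : C → ℂ) : ℂ) *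
      ((bk.s (bk.Y i0) : ℂ) * (Nat.card (HT D θ) : ℂ)) =
      Nat.card (inN D θ) * (Nat.card (κu D).range * charDegree (θ : C → ℂ) * bk.s (bk.Y i0)) := by
    rw [card_rangeE D θ]; push_cast; ring
  rw [h5] at h2
  have h6 : (Nat.card (inN D θ) : ℂ) * (p * c b) = Nat.card (inN D θ) *
    ((if Ab D θ i0 b then (p : ℂ) * charDegree (θ : C → ℂ) * bk.s (bk.Y i0) else 0) + ((p - 2 : ℕ) : ℂ) -
      Nat.card (κu D).range * charDegree (θ : C → ℂ) * bk.s (bk.Y i0)) := by
    rw [h2]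
    split_ifs <;> ring
  have h7 := mul_left_cancel₀ hin h6
  have hp2 := hp.out.two_le
  rw [Nat.cast_sub hp2] at h7
  split_ifs at h7 ⊢ with h8
  · exact_mod_cast h7
  · exact_mod_cast h7

include hdeg hc in
theorem star2z : (p : ℤ) * c 0 = ((p : ℤ) - 2) -
      Nat.card (κu D).range * charDegree (θ : C → ℂ) * bk.s (bk.Y i0) := by
  classical
  letI : Fintype N := Fintype.ofFinite N
  have hin : (Nat.card (inN D θ) : ℂ) ≠ 0 := by exact_mod_cast Nat.card_pos.ne'
  have h2 := star1 D bk.hM bk.hpC bk.hC bk.hN bk.ht bk.hDG bk.hind (bk.Y i0).2 hc 0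
  rw [sum_dm_Y bk, one_eq (bk.Y i0 : IrrCharacter G), hdeg, one_eq θ, ← Subgroup.card_mul_index (inN D θ), Finset.sum_eq_zero (by
    intro n _
    rw [zero_mul, dm, sub_self]), mul_zero, mul_zero, zero_add] at h2
  have h6 : (Nat.card (inN D θ) : ℂ) * (p * c 0) = Nat.card (inN D θ) *
    (((p - 2 : ℕ) : ℂ) - Nat.card (κu D).range * charDegree (θ : C → ℂ) * bk.s (bk.Y i0)) := by
    rw [h2, card_rangeE D θ]; push_cast; ring
  have h7 := mul_left_cancel₀ hin h6
  rw [Nat.cast_sub hp.out.two_le] at h7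
  exact_mod_cast h7

theorem Ab_self (θ : IrrCharacter C) (i0 : (ZMod p)ˣ) : Ab D θ i0 i0 := by
  rw [Ab_iff, inv_mul_cancel]
  exact Subgroup.one_mem _

include bk hdeg hc hfaith hnn hp3 in
theorem local_num : bk.s (bk.Y i0) = -1 ∧ Nat.card (κu D).range = 2 ∧ charDegree (θ : C → ℂ) = 1 ∧ c 0 = 1 := by
  classical
  have hz := star2z bk i0 hdeg hc
  have hb := star2 bk i0 hdeg hc
  have hdvd := range_dvd D
  have he : 0 < Nat.card (κu D).range := Nat.card_pos
  have hd := BlockDeg.charDegree_pos θ.2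
  have hsum := sum_c hdeg hc
  set e := Nat.card (κu D).range with hedef
  set d := charDegree (θ : C → ℂ) with hddef
  rcases bk.hs (bk.Y i0) with hs | hs
  · exfalso
    rw [hs] at hz hb
    simp only [mul_one] at hz hb
    have h1 : (0 : ℤ) < e * d := by exact_mod_cast Nat.mul_pos he hd
    have h2 : c 0 = 0 := by
      by_contra h0
      have h3 : (1 : ℤ) ≤ c 0 := by exact_mod_cast Nat.one_le_iff_ne_zero.2 h0
      nlinarith
    rw [h2, Nat.cast_zero, mul_zero] at hz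
    have h3 : (e * d : ℕ) = p - 2 := by
      zify [hp.out.two_le]; linarith
    have h4 : e ∣ p - 2 := ⟨d, h3.symm⟩
    have h5 : e = 1 := by
      have h6 : e ∣ (p - 1) - (p - 2) := Nat.dvd_sub hdvd h4
      have h7 : (p - 1) - (p - 2) = 1 := by omega
      rw [h7] at h6
      exact Nat.dvd_one.1 h6
    have h6 : d = p - 2 := by rw [← h3, h5, one_mul]
    have hbot : (κu D).range = ⊥ := Subgroup.card_eq_one.1 (hedef ▸ h5)
    have h7 : ∀ b : ZMod p, b ≠ i0 → c b = 0 := by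
      intro b hb'
      by_cases hb0 : b = 0
      · rw [hb0]; exact h2
      · have h8 := hb (Units.mk0 b hb0)
        rw [if_neg, Units.val_mk0] at h8
        · have h9 : (p : ℤ) * c b = 0 := by rw [h8]; linarith
          have h10 : (p : ℤ) ≠ 0 := by exact_mod_cast hp.out.ne_zero
          exact_mod_cast (mul_eq_zero.1 h9).resolve_left h10
        · rw [Ab_iff, hbot, Subgroup.mem_bot]
          intro h9
          apply hb'
          have h10 := inv_mul_eq_one.1 h9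
          rw [h10, Units.val_mk0]
    have h8 : ((bk.Y (i0 : (ZMod p)ˣ ⧸ HT D θ) : IrrCharacter G) : G → ℂ) D.u = (c i0 : ℂ) * stdAddChar (i0 : ZMod p) := by
      have h9 := hc 1
      rw [pow_one, Finset.sum_eq_single (i0 : ZMod p), Nat.cast_one, mul_one] at h9
      · exact h9
      · intro b _ hb'
        rw [h7 b hb', Nat.cast_zero, zero_mul]
      · intro h; exact absurd (Finset.mem_univ _) h
    have h9 : c i0 = p - 2 := by
      rw [← hsum, Finset.sum_eq_single (i0 : ZMod p)]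
      · intro b _ hb'; exact h7 b hb'
      · intro h; exact absurd (Finset.mem_univ _) h
    have h10 : D.u ∈ Subgroup.center G := by
      apply mem_center_of_norm hfaith
      rw [h8, one_eq, hdeg, h9, norm_mul, AddChar.norm_apply, mul_one]
    apply hnn
    refine ⟨fun x hx g => ?_⟩
    have h11 : x ∈ Subgroup.center G := by
      obtain ⟨i, rfl⟩ := D.gen x hx
      exact Subgroup.pow_mem _ h10 i
    rw [Subgroup.mem_center_iff] at h11
    rw [h11 g, mul_inv_cancel_right]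
    exact hx
  · rw [hs] at hz hb
    refine ⟨hs, ?_⟩
    have h1 := hb i0
    rw [if_pos (Ab_self θ i0)] at h1
    have h2 : (c i0 : ℤ) = c 0 - d := by
      have h3 : (p : ℤ) ≠ 0 := by exact_mod_cast hp.out.ne_zero
      apply mul_left_cancel₀ h3
      linear_combination h1 - hz
    obtain ⟨k, hk⟩ := hdvd
    have hk0 : k ≠ 0 := by
      rintro rfl
      omega
    by_cases hk1 : k = 1
    · exfalso
      rw [hk1, mul_one] at hk
      have htop : (κu D).range = ⊤ := by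
        apply Subgroup.eq_top_of_card_eq
        rw [Nat.card_eq_fintype_card (α := (ZMod p)ˣ), ZMod.card_units, hk]
      have h3 : ∀ b : ZMod p, b ≠ 0 → c b = c i0 := by
        intro b hb0
        have h8 := hb (Units.mk0 b hb0)
        rw [if_pos (by rw [Ab_iff, htop]; exact Subgroup.mem_top _), Units.val_mk0] at h8
        have h3 : (p : ℤ) ≠ 0 := by exact_mod_cast hp.out.ne_zero
        have h4 : (c b : ℤ) = c i0 := by
          apply mul_left_cancel₀ h3
          rw [h8, h1]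
        exact_mod_cast h4
      apply not_all_zero hdeg hfaith hp3 hc
      intro b hb'
      by_contra hne
      have h5 : ∑ j : ZMod p, c j ≥ ∑ j ∈ Finset.univ.erase (0 : ZMod p), 1 := by
        rw [← Finset.add_sum_erase _ _ (Finset.mem_univ (0 : ZMod p))]
        refine le_trans (Finset.sum_le_sum fun j hj => ?_) (Nat.le_add_left _ _)
        rw [h3 j (Finset.ne_of_mem_erase hj), ← h3 b hb']
        omega
      rw [Finset.sum_const, Finset.card_erase_of_mem (Finset.mem_univ _), Finset.card_univ, ZMod.card, smul_eq_mul, mul_one,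
        hsum] at h5
      omega
    · have h3 : (2 : ℤ) * e ≤ p - 1 := by
        have h4 : 2 ≤ k := by omega
        have h5 : e * 2 ≤ p - 1 := by rw [hk]; exact Nat.mul_le_mul_left e h4
        omega
      have h4 : (0 : ℤ) ≤ c i0 := Int.natCast_nonneg _
      have he' : (1 : ℤ) ≤ e := by exact_mod_cast he
      have hd' : (1 : ℤ) ≤ d := by exact_mod_cast hd
      have hp3' : (3 : ℤ) < p := by exact_mod_cast hp3
      have h5 : (d : ℤ) = 1 := by
        by_contra hne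
        have h6 : (2 : ℤ) ≤ d := by omega
        nlinarith
      rw [h5] at hz
      have h6 : (c 0 : ℤ) = 1 := by
        have h7 : (0 : ℤ) < c 0 := by
          by_contra h8
          push Not at h8
          nlinarith
        by_contra hne
        have h8 : (2 : ℤ) ≤ c 0 := by omega
        nlinarith
      rw [h6] at hz
      refine ⟨by zify; linarith, by exact_mod_cast h5, by exact_mod_cast h6⟩

end two

end Cfsg.Agent.Lib.H15Pa
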