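import Cfsg.Agent.Lib.H15Pc

set_option autoImplicit false
set_option linter.all false

/-!
# Faithful characters of degree `p - 2`: the local structure (fourth part)
-/

namespace Cfsg.Agent.Lib.H15Pa

open Cfsg Cfsg.Agent.Lib.BlockRing Cfsg.Agent.Lib.BlockGA Cfsg.Agent.Lib.BlockIdem
open Cfsg.Agent.Lib.BlockSecond Cfsg.Agent.Lib.BlockNormP
open Cfsg.Agent.Lib.DefOneLoc Cfsg.Agent.Lib.DefOneOrd Cfsg.Agent.Lib.CharBasic Cfsg.Agent.Lib.DefOneGram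
open Cfsg.Agent.Lib.DefOneBlk Cfsg.Agent.Lib.DefOne Cfsg.Agent.Lib.DefOneGen Cfsg.Agent.Lib.DefOneGalois
open scoped ComplexConjugate
open ZMod (stdAddChar)

universe u

variable {G : Type u} [Group G] [Fintype G] {p : ℕ} [hp : Fact p.Prime] {P N C : Subgroup G}
  {D : Loc p P N C} [Fintype C] {M : Ideal AlgInt} {θ : IrrCharacter C} {B : Set (IrrCharacter G)}
  (bk : Blk D M θ B) (i0 : (ZMod p)ˣ) 
  (hdeg : charDegree ((bk.Y (i0 : (ZMod p)ˣ ⧸ HT D θ) : IrrCharacter G) : G → ℂ) = p - 2)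
  (hfaith : ∀ g : G, ((bk.Y (i0 : (ZMod p)ˣ ⧸ HT D θ) : IrrCharacter G) : G → ℂ) g =
    ((bk.Y (i0 : (ZMod p)ˣ ⧸ HT D θ) : IrrCharacter G) : G → ℂ) 1 → g = 1) (hnn : ¬ P.Normal) (hp3 : 3 < p)
  {c : ZMod p → ℕ}
  (hc : ∀ k : ℕ, ((bk.Y (i0 : (ZMod p)ˣ ⧸ HT D θ) : IrrCharacter G) : G → ℂ) (D.u ^ k) =
    ∑ j, (c j : ℂ) * stdAddChar (j * (k : ZMod p)))

include hdeg hc hfaith hnn hp3 in
/-- the missing eigenvalues -/
theorem c_zero_of_Ab {b : (ZMod p)ˣ} (hb : Ab D θ i0 b) : c b = 0 := by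
  classical
  obtain ⟨hs, he, hd, h0⟩ := local_num bk i0 hdeg hfaith hnn hp3 hc
  have h1 := star2 bk i0 hdeg hc b
  rw [if_pos hb, hs, he, hd] at h1
  have h2 : (p : ℤ) * c b = 0 := by
    rw [h1]; push_cast; ring
  have h3 : (p : ℤ) ≠ 0 := by exact_mod_cast hp.out.ne_zero
  exact_mod_cast (mul_eq_zero.1 h2).resolve_left h3

include hdeg hc hfaith hnn hp3 in
theorem c_one_of_not_Ab {b : (ZMod p)ˣ} (hb : ¬ Ab D θ i0 b) : c b = 1 := by
  classical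
  obtain ⟨hs, he, hd, h0⟩ := local_num bk i0 hdeg hfaith hnn hp3 hc
  have h1 := star2 bk i0 hdeg hc b
  rw [if_neg hb, hs, he, hd] at h1
  have h3 : (p : ℤ) ≠ 0 := by exact_mod_cast hp.out.ne_zero
  have h2 : (c b : ℤ) = 1 := by
    apply mul_left_cancel₀ h3
    rw [h1]; push_cast; ring
  exact_mod_cast h2

include hdeg hc hfaith hnn hp3 in
theorem key_eq [Fintype N] {v : C} (hv : D.l v = 0) (n0 : N) :
    (p : ℂ) * Nat.card (inN D θ) * (cjI D n0 θ : C → ℂ) v = (Nat.card (inN D θ) : ℂ) *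
      ((bk.Y (i0 : (ZMod p)ˣ ⧸ HT D θ) : IrrCharacter G) : G → ℂ) v +
      (Nat.card (HT D θ) : ℂ) * ∑ n : N, (cjI D n θ : C → ℂ) v := by
  classical
  obtain ⟨hs, he, hd, h0⟩ := local_num bk i0 hdeg hfaith hnn hp3 hc
  set b : (ZMod p)ˣ := i0 * κu D n0 with hb
  have hbn : ((b * (κu D n0)⁻¹ : (ZMod p)ˣ) : (ZMod p)ˣ ⧸ HT D θ) = i0 := by
    rw [hb, mul_inv_cancel_right]
  have hcb := c_zero_of_Ab bk i0 hdeg hfaith hnn hp3 hc (b := b) ⟨n0, hbn⟩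
  have h1 : ∑ k : ZMod p, ((bk.Y (i0 : (ZMod p)ˣ ⧸ HT D θ) : IrrCharacter G) : G → ℂ) (D.u ^ k.val) *
      stdAddChar (-((b : ZMod p) * k)) = 0 := by
    have h2 : ∑ k : ZMod p, ((bk.Y (i0 : (ZMod p)ˣ ⧸ HT D θ) : IrrCharacter G) : G → ℂ) (D.u ^ k.val) *
      stdAddChar (-((b : ZMod p) * k)) = p * c b := by
      rw [← ColTools.dft (fun j => (c j : ℂ)) b]
      refine Finset.sum_congr rfl fun k _ => ?_
      rw [hc, ZMod.natCast_zmod_val]
    rw [h2, hcb, Nat.cast_zero, mul_zero]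
  have h2 := eig_zero (bk.Y (i0 : (ZMod p)ˣ ⧸ HT D θ) : IrrCharacter G).2.isCharacter (up D) (b : ZMod p) h1 v
  have h3 := star D bk.hM bk.hpC bk.hC bk.hN bk.ht bk.hDG bk.hind (bk.Y i0).2 hv (b : ZMod p)
  rw [h2, mul_zero, sum_dm_Y bk, hs] at h3
  have h4 : ∑ n : N, (cjI D n θ : C → ℂ) v *
      dm D ((bk.Y (i0 : (ZMod p)ˣ ⧸ HT D θ) : IrrCharacter G) : G → ℂ) θ (b * (D.κ n)⁻¹) =
      - (Nat.card (inN D θ) * (cjI D n0 θ : C → ℂ) v) := by
    rw [← cnt D θ b i0 n0 hbn (fun n => (cjI D n θ : C → ℂ) v) (fun m n hm => by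
      change (cjI D (m * n) θ : C → ℂ) v = (cjI D n θ : C → ℂ) v
      rw [cjI_mul, (mem_inN D).1 hm]), ← Finset.sum_neg_distrib]
    refine Finset.sum_congr rfl fun n _ => ?_
    have h5 : dm D ((bk.Y (i0 : (ZMod p)ˣ ⧸ HT D θ) : IrrCharacter G) : G → ℂ) θ (b * (D.κ n)⁻¹) =
        if ((b * (κu D n)⁻¹ : (ZMod p)ˣ) : (ZMod p)ˣ ⧸ HT D θ) = i0 then (bk.s (bk.Y i0) : ℂ) else 0 := by
      rw [← bk.hs2]
      congr 1
    rw [h5, hs]
    split_ifs <;> simp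
  rw [h4] at h3
  push_cast at h3
  linear_combination h3

include hdeg hc hfaith hnn hp3 in
theorem inN_top : inN D θ = ⊤ := by
  classical
  letI : Fintype N := Fintype.ofFinite N
  rw [Subgroup.eq_top_iff']
  intro n
  rw [mem_inN]
  apply Subtype.ext
  funext x
  have hx : ∀ v : C, D.l v = 0 → (cjI D n θ : C → ℂ) v = (θ : C → ℂ) v := by
    intro v hv
    have h1 := key_eq bk i0 hdeg hfaith hnn hp3 hc hv n
    have h2 := key_eq bk i0 hdeg hfaith hnn hp3 hc hv 1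
    have h3 : (p : ℂ) * Nat.card (inN D θ) ≠ 0 := by
      apply mul_ne_zero
      · exact_mod_cast hp.out.ne_zero
      · exact_mod_cast Nat.card_pos.ne'
    have h4 : (cjI D (1 : N) θ : C → ℂ) v = (θ : C → ℂ) v := by
      rw [cjI_of_mem D C.one_mem θ]
    rw [← h4]
    exact mul_left_cancel₀ h3 (h1.trans h2.symm)
  obtain ⟨y, v, hyv, hv⟩ := D.fac x
  have h1 : x = ⟨y, D.PC y.2⟩ * v := Subtype.ext hyv
  rw [h1, theta_mul D (cjI D n θ).2.isCharacter (trivOn_cjI D n bk.ht) (x := ⟨y, D.PC y.2⟩) y.2,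
    theta_mul D θ.2.isCharacter bk.ht (x := ⟨y, D.PC y.2⟩) y.2]
  exact hx v hv

include hdeg hc hfaith hnn hp3 in
theorem card_HT : Nat.card (HT D θ) = 2 := by
  letI : Fintype N := Fintype.ofFinite N
  obtain ⟨hs, he, hd, h0⟩ := local_num bk i0 hdeg hfaith hnn hp3 hc
  rw [card_rangeE D θ, inN_top bk i0 hdeg hfaith hnn hp3 hc, Subgroup.index_top, mul_one] at he
  exact he

include hdeg hc hfaith hnn hp3 in
theorem val_V {v : C} (hv : D.l v = 0) :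
    ((bk.Y (i0 : (ZMod p)ˣ ⧸ HT D θ) : IrrCharacter G) : G → ℂ) v = ((p : ℂ) - 2) * (θ : C → ℂ) v := by
  classical
  letI : Fintype N := Fintype.ofFinite N
  have htop := inN_top bk i0 hdeg hfaith hnn hp3 hc
  have h1 := key_eq bk i0 hdeg hfaith hnn hp3 hc hv 1
  have h2 : ∀ n : N, (cjI D n θ : C → ℂ) v = (θ : C → ℂ) v := by
    intro n
    have : n ∈ inN D θ := by rw [htop]; exact Subgroup.mem_top _
    rw [(mem_inN D).1 this]
  have h3 : (Nat.card (inN D θ) : ℂ) ≠ 0 := by exact_mod_cast Nat.card_pos.ne'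
  rw [h2, Finset.sum_congr rfl fun n _ => h2 n, Finset.sum_const, Finset.card_univ, ← Nat.card_eq_fintype_card,
    nsmul_eq_mul, card_HT bk i0 hdeg hfaith hnn hp3 hc, ← Subgroup.card_mul_index (inN D θ)] at h1
  have h4 : (inN D θ).index = 1 := by rw [htop, Subgroup.index_top]
  rw [h4, mul_one] at h1
  apply mul_left_cancel₀ h3
  push_cast at h1
  linear_combination -h1

include hdeg hc hfaith hnn hp3 in
theorem mem_center_of_V {v : C} (hv : D.l v = 0) : (v : G) ∈ Subgroup.center G := by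
  obtain ⟨hs, he, hd, h0⟩ := local_num bk i0 hdeg hfaith hnn hp3 hc
  apply mem_center_of_norm hfaith
  rw [val_V bk i0 hdeg hfaith hnn hp3 hc hv, one_eq, hdeg, norm_mul]
  have h1 : (θ : C → ℂ) 1 = 1 := by rw [one_eq, hd, Nat.cast_one]
  obtain ⟨f, hf⟩ := θ.2.isCharacter.exists_hom h1
  have h2 : ‖(θ : C → ℂ) v‖ = 1 := by
    have h3 : (θ : C → ℂ) v ^ orderOf v = 1 := by
      rw [hf, ← Units.val_pow_eq_pow_val, ← map_pow, pow_orderOf_eq_one, map_one, Units.val_one]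
    exact Complex.norm_eq_one_of_pow_eq_one h3 (orderOf_pos v).ne'
  rw [h2, mul_one, Nat.cast_sub hp.out.two_le]
  norm_num

end Cfsg.Agent.Lib.H15Pa
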