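import Cfsg.Agent.Lib.H15Pd
import Cfsg.Agent.Lib.PrincPairs
import Cfsg.Agent.Lib.BlockThird

set_option autoImplicit false
set_option linter.all false

/-!
# Blocks of defect one: sums of structure constants
-/

namespace Cfsg.Agent.Lib.H15Pa

open Cfsg Cfsg.Agent.Lib.BlockRing Cfsg.Agent.Lib.BlockGA Cfsg.Agent.Lib.BlockIdem
open Cfsg.Agent.Lib.BlockSecond Cfsg.Agent.Lib.BlockNormP Cfsg.Agent.Lib.BlockThird
open Cfsg.Agent.Lib.DefOneLoc Cfsg.Agent.Lib.DefOneOrd Cfsg.Agent.Lib.CharBasic Cfsg.Agent.Lib.DefOneGram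
open Cfsg.Agent.Lib.DefOneBlk Cfsg.Agent.Lib.DefOne Cfsg.Agent.Lib.DefOneGen Cfsg.Agent.Lib.DefOneGalois
open scoped ComplexConjugate
open ZMod (stdAddChar)

universe u

variable {G : Type u} [Group G] [Fintype G] {p : ℕ} [hp : Fact p.Prime] {P N C : Subgroup G}

/-- Fourier coefficient of the differences -/
theorem sum_dm_char (D : Loc p P N C) [Fintype C] (χ : G → ℂ) (θ : IrrCharacter C) :
    (Nat.card C : ℂ) * ∑ i : ZMod p, dm D χ θ i * stdAddChar i =
      p * ∑ c : C, (if D.l c = 1 then χ c * conj ((θ : C → ℂ) c) else 0) := by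
  classical
  have hC : (Nat.card C : ℂ) ≠ 0 := by exact_mod_cast Nat.card_pos.ne'
  have h1 : ∀ i : ZMod p, (Nat.card C : ℂ) * (dm D χ θ i * stdAddChar i) =
      ∑ c : C, χ c * conj ((θ : C → ℂ) c) * (stdAddChar (i * (1 - D.l c)) - stdAddChar i) := by
    intro i
    rw [dm_eq_classInner, classInner_def, ← mul_assoc, mul_inv_cancel_left₀ hC, Finset.sum_mul]
    refine Finset.sum_congr rfl fun c _ => ?_
    rw [Pi.sub_apply, LT_apply, LT_apply, map_sub, map_mul, map_mul, conj_lam, lam_zero, Pi.one_apply, map_one, mul_one,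
      lam, rs]
    have h2 : (stdAddChar (i * (1 - D.l c)) : ℂ) = stdAddChar (-i * D.l c) * stdAddChar i := by
      rw [← AddChar.map_add_eq_mul]
      congr 1
      ring
    rw [h2]
    ring
  rw [Finset.mul_sum, Finset.sum_congr rfl fun i _ => h1 i, Finset.sum_comm, Finset.mul_sum]
  refine Finset.sum_congr rfl fun c _ => ?_
  rw [← Finset.mul_sum, Finset.sum_sub_distrib]
  have h3 : ∑ i : ZMod p, (stdAddChar i : ℂ) = 0 := by
    have := AddChar.sum_mulShift (R := ZMod p) (R' := ℂ) (ψ := ZMod.stdAddChar) 1 (ZMod.isPrimitive_stdAddChar p)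
    rw [if_neg one_ne_zero] at this
    rw [← Nat.cast_zero, ← this]
    refine Finset.sum_congr rfl fun i _ => ?_
    rw [mul_one]
  have h4 := AddChar.sum_mulShift (R := ZMod p) (R' := ℂ) (ψ := ZMod.stdAddChar) (1 - D.l c) (ZMod.isPrimitive_stdAddChar p)
  rw [h3, sub_zero, h4, ZMod.card]
  by_cases hl : D.l c = 1
  · rw [if_pos (by rw [hl, sub_self]), if_pos hl, mul_comm]
  · rw [if_neg (fun h => hl (sub_eq_zero.1 h).symm), if_neg hl, Nat.cast_zero, mul_zero, mul_zero]

theorem sum_units_char : ∑ i : (ZMod p)ˣ, (stdAddChar (i : ZMod p) : ℂ) = -1 := by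
  have h := DefOnePrin.sum_zmod_units (p := p) (fun i => stdAddChar i)
  have h3 : ∑ i : ZMod p, (stdAddChar i : ℂ) = 0 := by
    have := AddChar.sum_mulShift (R := ZMod p) (R' := ℂ) (ψ := ZMod.stdAddChar) 1 (ZMod.isPrimitive_stdAddChar p)
    rw [if_neg one_ne_zero] at this
    rw [← Nat.cast_zero, ← this]
    refine Finset.sum_congr rfl fun i _ => ?_
    rw [mul_one]
  rw [h3, AddChar.map_zero_eq_one] at h
  linear_combination -h

/-- the principal block -/
theorem exists_Blk_triv {M : Ideal AlgInt} (hM : IsPModular p M) (Q : Sylow p G) (hQ : Nat.card Q = p)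
    (D : Loc p (Q : Subgroup G) (Subgroup.normalizer ((Q : Subgroup G) : Set G))
      (Subgroup.centralizer ((Q : Subgroup G) : Set G)))
    [Fintype (Subgroup.centralizer ((Q : Subgroup G) : Set G))] :
    Nonempty (Blk D M (triv (Subgroup.centralizer ((Q : Subgroup G) : Set G))) (principalBlock M G)) := by
  classical
  have hprime := isPrime hM
  haveI hmax : M.IsMaximal := hM.2.1
  haveI : CharP (BlockAlg.Kf M) p := BlockAlg.charP_Kf hM
  have hsq := DefOnePrin.not_sq Q hQ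
  have hDG : IsDefectGroup p M (principalBlock M G) (Q : Subgroup G) := (PrincPairs.isDefectGroup_principal_iff hM).2 ⟨Q, rfl⟩
  have hPp : IsPGroup p (Q : Subgroup G) := Q.isPGroup'
  have ht : TrivOn D ((triv (Subgroup.centralizer ((Q : Subgroup G) : Set G)) :
      IrrCharacter (Subgroup.centralizer ((Q : Subgroup G) : Set G))) :
      Subgroup.centralizer ((Q : Subgroup G) : Set G) → ℂ) := by
    intro x _
    rw [coe_triv]
  have hind : IsInducedBlock M (Subgroup.centralizer ((Q : Subgroup G) : Set G))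
      (blockOf M ((triv (Subgroup.centralizer ((Q : Subgroup G) : Set G)) :
      IrrCharacter (Subgroup.centralizer ((Q : Subgroup G) : Set G))) :
      Subgroup.centralizer ((Q : Subgroup G) : Set G) → ℂ))
      (principalBlock M G) := by
    obtain ⟨B, hB⟩ := BlockHom.inducedBlockDefined (H := Subgroup.centralizer ((Q : Subgroup G) : Set G)) hM
      hPp D.PC le_rfl D.CN (isPBlock_principal (M := M))
    have h1 := (BlockThird.induced_principal_iff hM hB).1 rfl
    rw [h1] at hB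
    exact hB
  obtain ⟨hcard, Y, s, hY, hs, hs1, hs2⟩ := main_general D Q rfl rfl rfl hM hQ ht hDG hind
  exact ⟨⟨hM, fun h => hsq (h.trans (Subgroup.card_subgroup_dvd_card _)),
    (sup_eq_right.2 D.PC).symm, rfl, ht, hDG, hind, hcard, Y, s, hY, hs, hs1, hs2⟩⟩

theorem inN_triv (D : Loc p P N C) : inN D (triv C) = ⊤ := by
  rw [Subgroup.eq_top_iff']
  intro n
  rw [mem_inN]
  apply Subtype.ext
  funext c
  rw [cjI_apply, coe_triv]

section blk

variable {D : Loc p P N C} [Fintype C] {M : Ideal AlgInt} {θ : IrrCharacter C} {B : Set (IrrCharacter G)}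
  (bk : Blk D M θ B)

include bk in
theorem card_quot_eq (hHT : Nat.card (HT D θ) = 2) : 2 * Nat.card ((ZMod p)ˣ ⧸ HT D θ) = p - 1 := by
  have h1 := Subgroup.card_eq_card_quotient_mul_card_subgroup (HT D θ)
  rw [Nat.card_eq_fintype_card (α := (ZMod p)ˣ), ZMod.card_units, hHT] at h1
  omega

/-- the two nonexceptional characters -/
theorem exists_two (hHT : Nat.card (HT D θ) = 2) : ∃ a b : B, a ≠ b ∧ a ∉ Set.range bk.Y ∧ b ∉ Set.range bk.Y ∧
    ∀ χ : B, χ ∉ Set.range bk.Y → χ = a ∨ χ = b := by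
  classical
  letI : Fintype B := Fintype.ofFinite _
  have h1 : Nat.card ((Set.range bk.Y)ᶜ : Set B) = 2 := by
    have h2 := Set.ncard_add_ncard_compl (Set.range bk.Y)
    rw [← Nat.card_coe_set_eq, ← Nat.card_coe_set_eq, Nat.card_range_of_injective bk.hY, bk.card, hHT] at h2
    omega
  rw [Nat.card_coe_set_eq, Set.ncard_eq_two] at h1
  obtain ⟨a, b, hab, h2⟩ := h1
  refine ⟨a, b, hab, ?_, ?_, ?_⟩
  · have : a ∈ (Set.range bk.Y)ᶜ := by rw [h2]; simp
    exact this
  · have : b ∈ (Set.range bk.Y)ᶜ := by rw [h2]; simp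
    exact this
  · intro χ hχ
    have : χ ∈ ({a, b} : Set B) := by rw [← h2]; exact hχ
    simpa using this

/-- the constant sign -/
theorem s_Y (q q' : (ZMod p)ˣ ⧸ HT D θ) : bk.s (bk.Y q) = bk.s (bk.Y q') :=
  same_sign D bk.hM bk.hind.2.1 bk.Y bk.s bk.hY bk.hs bk.hs1 bk.hs2 q q'

variable {a b : B} (hab : a ≠ b) (ha : a ∉ Set.range bk.Y) (hb : b ∉ Set.range bk.Y)
  (hall : ∀ χ : B, χ ∉ Set.range bk.Y → χ = a ∨ χ = b)

include hab ha hb hall in
theorem rel_two (q : (ZMod p)ˣ ⧸ HT D θ) {g : G} (hg : ¬ p ∣ orderOf g) :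
    (bk.s a : ℂ) * ((a : IrrCharacter G) : G → ℂ) g + (bk.s b : ℂ) * ((b : IrrCharacter G) : G → ℂ) g +
      (bk.s (bk.Y q) : ℂ) * ((bk.Y q : IrrCharacter G) : G → ℂ) g = 0 := by
  classical
  have h1 := rel_general D bk.hM bk.hind.2.1 bk.Y bk.s bk.hY bk.hs1 bk.hs2 q hg
  have h2 : B \ Set.range (fun q => (bk.Y q : IrrCharacter G)) = {(a : IrrCharacter G), (b : IrrCharacter G)} := by
    ext χ
    rw [Set.mem_insert_iff, Set.mem_singleton_iff]
    constructor
    · rintro ⟨h3, h4⟩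
      rcases hall ⟨χ, h3⟩ (by
        rintro ⟨q, hq⟩
        exact h4 ⟨q, congrArg Subtype.val hq⟩) with h5 | h5
      · left; exact congrArg Subtype.val h5
      · right; exact congrArg Subtype.val h5
    · rintro (rfl | rfl)
      · refine ⟨a.2, ?_⟩
        rintro ⟨q, hq⟩
        exact ha ⟨q, Subtype.ext hq⟩
      · refine ⟨b.2, ?_⟩
        rintro ⟨q, hq⟩
        exact hb ⟨q, Subtype.ext hq⟩
  rw [h2, finsum_mem_pair (fun h => hab (Subtype.ext h)), dif_pos a.2, dif_pos b.2] at h1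
  exact h1

include hab ha hb hall in
/-- sum over the block -/
theorem sum_block (f : IrrCharacter G → ℂ) (f0 : ℂ) (hf : ∀ q, f (bk.Y q) = f0) (q : (ZMod p)ˣ ⧸ HT D θ) :
    ∑ χ : IrrCharacter G, f χ * ∑ i : ZMod p, dm D (χ : G → ℂ) θ i * stdAddChar i =
      - (bk.s a : ℂ) * f a - (bk.s b : ℂ) * f b - (bk.s (bk.Y q) : ℂ) * f0 := by
  classical
  letI : Fintype B := Fintype.ofFinite _
  letI : Fintype ((ZMod p)ˣ ⧸ HT D θ) := Fintype.ofFinite _
  have h0 : ∀ χ : IrrCharacter G, ∑ i : ZMod p, dm D (χ : G → ℂ) θ i * stdAddChar i =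
      ∑ i : (ZMod p)ˣ, dm D (χ : G → ℂ) θ i * stdAddChar (i : ZMod p) := by
    intro χ
    rw [DefOnePrin.sum_zmod_units, dm, sub_self, zero_mul, zero_add]
  have hn : ∀ χ : B, χ ∉ Set.range bk.Y → ∑ i : ZMod p, dm D ((χ : IrrCharacter G) : G → ℂ) θ i * stdAddChar i =
      - bk.s χ := by
    intro χ hχ
    rw [h0, Finset.sum_congr rfl fun i _ => by rw [bk.hs1 χ hχ i], ← Finset.mul_sum, sum_units_char]
    ring
  set F : IrrCharacter G → ℂ := fun χ => f χ * ∑ i : ZMod p, dm D (χ : G → ℂ) θ i * stdAddChar i with hF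
  have h1 : ∑ χ : IrrCharacter G, F χ = ∑ χ : B, F χ := by
    symm
    refine Finset.sum_bij_ne_zero (fun χ _ _ => (χ : IrrCharacter G)) (fun _ _ _ => Finset.mem_univ _)
      (fun _ _ _ _ _ _ h => Subtype.ext h) ?_ (fun _ _ _ => rfl)
    intro χ _ hχ
    by_cases hm : χ ∈ B
    · exact ⟨⟨χ, hm⟩, Finset.mem_univ _, hχ, rfl⟩
    · exfalso
      apply hχ
      rw [hF]
      change f χ * _ = 0
      rw [Finset.sum_eq_zero, mul_zero]
      intro i _
      rw [dm_of_not_mem D bk.hM bk.hpC bk.ht bk.hind hm, zero_mul]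
  have h2 : (Finset.univ : Finset B) = insert a (insert b (Finset.univ.image bk.Y)) := by
    ext χ
    simp only [Finset.mem_univ, Finset.mem_insert, Finset.mem_image, true_and, true_iff]
    by_cases h3 : χ ∈ Set.range bk.Y
    · right; right; exact h3
    · rcases hall χ h3 with h4 | h4
      · left; exact h4
      · right; left; exact h4
  rw [h1, h2, Finset.sum_insert, Finset.sum_insert, Finset.sum_image (fun _ _ _ _ h => bk.hY h)]
  · have h3 : ∑ q : (ZMod p)ˣ ⧸ HT D θ, F (bk.Y q) = - (bk.s (bk.Y q) : ℂ) * f0 := by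
      have h4 : ∀ q' : (ZMod p)ˣ ⧸ HT D θ, F (bk.Y q') = ∑ i : (ZMod p)ˣ,
          if (i : (ZMod p)ˣ ⧸ HT D θ) = q' then (bk.s (bk.Y q) : ℂ) * f0 * stdAddChar (i : ZMod p) else 0 := by
        intro q'
        change f (bk.Y q') * _ = _
        rw [hf, h0, Finset.mul_sum]
        refine Finset.sum_congr rfl fun i _ => ?_
        rw [bk.hs2, s_Y bk q' q]
        split_ifs
        · ring
        · ring
      rw [Finset.sum_congr rfl fun q' _ => h4 q', Finset.sum_comm]
      have h5 : ∀ i : (ZMod p)ˣ, ∑ q' : (ZMod p)ˣ ⧸ HT D θ,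
          (if (i : (ZMod p)ˣ ⧸ HT D θ) = q' then (bk.s (bk.Y q) : ℂ) * f0 * stdAddChar (i : ZMod p) else 0) =
          (bk.s (bk.Y q) : ℂ) * f0 * stdAddChar (i : ZMod p) := by
        intro i
        rw [Finset.sum_ite_eq Finset.univ, if_pos (Finset.mem_univ _)]
      rw [Finset.sum_congr rfl fun i _ => h5 i, ← Finset.mul_sum, sum_units_char]
      ring
    rw [h3]
    change f a * _ + (f b * _ + _) = _
    rw [hn a ha, hn b hb]
    ring
  · intro h3
    obtain ⟨q, -, hq⟩ := Finset.mem_image.1 h3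
    exact hb ⟨q, hq⟩
  · intro h3
    rcases Finset.mem_insert.1 h3 with h4 | h4
    · exact hab h4
    · obtain ⟨q, -, hq⟩ := Finset.mem_image.1 h4
      exact ha ⟨q, hq⟩

end blk

end Cfsg.Agent.Lib.H15Pa
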