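import Cfsg.Agent.Lib.H15Pe

set_option autoImplicit false
set_option linter.all false

/-!
# Values at involutions inverting the Sylow subgroup
-/

namespace Cfsg.Agent.Lib.H15Pa

open Cfsg Cfsg.Agent.Lib.BlockRing Cfsg.Agent.Lib.BlockGA Cfsg.Agent.Lib.BlockIdem
open Cfsg.Agent.Lib.BlockSecond Cfsg.Agent.Lib.BlockNormP Cfsg.Agent.Lib.BlockThird
open Cfsg.Agent.Lib.DefOneLoc Cfsg.Agent.Lib.DefOneOrd Cfsg.Agent.Lib.CharBasic Cfsg.Agent.Lib.DefOneGram
open Cfsg.Agent.Lib.DefOneBlk Cfsg.Agent.Lib.DefOne Cfsg.Agent.Lib.DefOneGen Cfsg.Agent.Lib.DefOneGalois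
open scoped ComplexConjugate
open ZMod (stdAddChar)

universe u

variable {G : Type u} [Group G] [Fintype G] {p : ℕ} [hp : Fact p.Prime] {P N C : Subgroup G}

theorem norm_central {χ : G → ℂ} (hχ : IsIrrCharacter G χ) {z : G} (hz : z ∈ Subgroup.center G) :
    ‖χ z‖ = ‖χ 1‖ := by
  obtain ⟨n, ρ, hρ, rfl⟩ := hχ
  have := hρ
  obtain ⟨c, hc⟩ := CharCentral.exists_scalar_of_commute ρ (f := ρ z) (by
    intro g v
    have hz' := Subgroup.mem_center_iff.mp hz g
    have h1 : ρ (z : G) ∘ₗ ρ g = ρ g ∘ₗ ρ (z : G) := by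
      change ρ (z : G) * ρ g = ρ g * ρ (z : G)
      rw [← map_mul, ← map_mul, hz']
    exact congrArg (fun f => f v) h1)
  have h0 : ‖ρ.character 1‖ = (Module.finrank ℂ (Fin n → ℂ) : ℝ) := by rw [ρ.char_one]; simp
  rw [h0]
  exact (CharValues.norm_character_eq_iff ρ z).2 ⟨c, hc⟩

theorem hom_one_of_perfect (hG : commutator G = ⊤) (δ : G →* ℂˣ) : δ = 1 := by
  ext g
  have h1 : commutator G ≤ δ.ker := Abelianization.commutator_subset_ker δ
  rw [hG] at h1
  have h2 := h1 (Subgroup.mem_top g)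
  rw [MonoidHom.mem_ker] at h2
  rw [h2]
  rfl

/-- no central involution -/
theorem no_central (hG : commutator G = ⊤) {ζ : IrrCharacter G} (hodd : charDegree (ζ : G → ℂ) % 2 = 1)
    (hfaith : ∀ g : G, (ζ : G → ℂ) g = (ζ : G → ℂ) 1 → g = 1) {z : G} (hz : z ∈ Subgroup.center G)
    (hz2 : z ^ 2 = 1) : z = 1 := by
  obtain ⟨n0, n1, h1, h2, h3⟩ := ColTools.val_two ζ.2.isCharacter z hz2
  have h4 := h3 (hom_one_of_perfect hG)
  have h5 := norm_central ζ.2 hz
  rw [h1, h2] at h5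
  have h6 : |((n0 : ℤ) - n1 : ℤ)| = n0 + n1 := by
    have e1 : ((n0 : ℂ) - n1) = (((n0 : ℤ) - n1 : ℤ) : ℂ) := by push_cast; ring
    have e2 : ((n0 : ℂ) + n1) = (((n0 : ℤ) + n1 : ℤ) : ℂ) := by push_cast; ring
    rw [e1, e2, Complex.norm_intCast, Complex.norm_intCast] at h5
    have e3 : |((n0 : ℤ) - n1 : ℤ)| = |((n0 : ℤ) + n1 : ℤ)| := by exact_mod_cast h5
    rw [e3, abs_of_nonneg (by positivity)]
  have h7 : n1 = 0 ∨ n0 = 0 := by
    rcases abs_cases ((n0 : ℤ) - n1) with ⟨h8, -⟩ | ⟨h8, -⟩ <;> omega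
  rcases h7 with h7 | h7
  · apply hfaith
    rw [h1, h2, h7]
    simp
  · exfalso
    rw [h7, Nat.cast_zero, zero_add, one_eq] at h1
    have h8 : charDegree (ζ : G → ℂ) = n1 := by exact_mod_cast h1
    rw [h8] at hodd
    obtain ⟨k, hk⟩ := h4
    omega

theorem no_central_two (hG : commutator G = ⊤) {ζ : IrrCharacter G} (hodd : charDegree (ζ : G → ℂ) % 2 = 1)
    (hfaith : ∀ g : G, (ζ : G → ℂ) g = (ζ : G → ℂ) 1 → g = 1) {z : G} (hz : z ∈ Subgroup.center G) (k : ℕ)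
    (hz2 : z ^ 2 ^ k = 1) : z = 1 := by
  induction k with
  | zero => rwa [pow_zero, pow_one] at hz2
  | succ k ih =>
    apply ih
    apply no_central hG hodd hfaith (Subgroup.pow_mem _ hz _)
    rw [← pow_mul, ← pow_succ, hz2]

/-! ### local facts -/

section loc

variable (D : Loc p P N C)

omit [Fintype G] in
theorem l_inj {x y : G} (hx : x ∈ P) (hy : y ∈ P) (h : D.l ⟨x, D.PC hx⟩ = D.l ⟨y, D.PC hy⟩) : x = y := by
  obtain ⟨i, rfl⟩ := D.gen x hx
  obtain ⟨j, rfl⟩ := D.gen y hy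
  have h1 : ∀ i : ℕ, D.l ⟨D.u ^ i, C.pow_mem (D.PC D.uP) i⟩ = i := by
    intro i
    induction i with
    | zero =>
      have h2 := D.l_mul 1 1
      rw [mul_one] at h2
      have h3 : D.l (1 : C) = 0 := by linear_combination -h2
      have h4 : (⟨D.u ^ 0, C.pow_mem (D.PC D.uP) 0⟩ : C) = 1 := Subtype.ext (pow_zero _)
      rw [h4, h3, Nat.cast_zero]
    | succ i ih =>
      have h4 : (⟨D.u ^ (i + 1), C.pow_mem (D.PC D.uP) (i + 1)⟩ : C) =
        ⟨D.u ^ i, C.pow_mem (D.PC D.uP) i⟩ * ⟨D.u, D.PC D.uP⟩ := Subtype.ext (pow_succ _ _)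
      rw [h4, D.l_mul, ih, D.l_u, Nat.cast_succ]
  rw [h1, h1] at h
  have h2 := up D
  rw [← ColTools.pow_val D.u h2 i, h, ColTools.pow_val D.u h2 j]

omit [Fintype G] in
theorem l_inv (c : C) : D.l c⁻¹ = - D.l c := by
  have h2 := D.l_mul 1 1
  rw [mul_one] at h2
  have h3 : D.l (1 : C) = 0 := by linear_combination -h2
  have h4 := D.l_mul c c⁻¹
  rw [mul_inv_cancel, h3] at h4
  linear_combination -h4

omit [Fintype G] in
theorem conj_inv {n : N} (hn : D.κ n = -1) {x : G} (hx : x ∈ P) : (n : G) * x * (n : G)⁻¹ = x⁻¹ := by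
  apply l_inj D (D.norm n n.2 x hx) (P.inv_mem hx)
  have h1 := D.κ_conj n ⟨x, D.PC hx⟩ ⟨_, D.PC (D.norm n n.2 x hx)⟩ rfl
  rw [h1, hn]
  have h2 := l_inv D ⟨x, D.PC hx⟩
  have h3 : (⟨x⁻¹, D.PC (P.inv_mem hx)⟩ : C) = (⟨x, D.PC hx⟩ : C)⁻¹ := rfl
  rw [h3, h2]
  ring

theorem kappa_pm (h2 : Nat.card (κu D).range = 2) (n : N) : D.κ n = 1 ∨ D.κ n = -1 := by
  have h1 : (⟨κu D n, n, rfl⟩ : (κu D).range) ^ 2 = 1 := by
    rw [← h2]; exact pow_card_eq_one'
  have h3 : (κu D n) ^ 2 = 1 := congrArg Subtype.val h1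
  have h4 : D.κ n ^ 2 = 1 := by
    have := congrArg Units.val h3
    rw [Units.val_pow_eq_pow_val, κu_apply] at this
    exact this
  have h5 : (D.κ n - 1) * (D.κ n + 1) = 0 := by linear_combination h4
  rcases mul_eq_zero.1 h5 with h6 | h6
  · left; linear_combination h6
  · right; linear_combination h6

theorem exists_neg (h2 : Nat.card (κu D).range = 2) : ∃ n : N, D.κ n = -1 := by
  by_contra hcon
  push Not at hcon
  have h1 : (κu D).range = ⊥ := by
    rw [eq_bot_iff]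
    rintro _ ⟨n, rfl⟩
    rw [Subgroup.mem_bot]
    apply Units.ext
    rw [κu_apply]
    exact (kappa_pm D h2 n).resolve_right (hcon n)
  rw [h1, Subgroup.card_bot] at h2
  omega

theorem sum_P_eq [Fintype P] (χ : G → ℂ) : ∑ y : P, χ y = ∑ k : ZMod p, χ (D.u ^ k.val) := by
  classical
  symm
  refine Fintype.sum_bijective (fun k : ZMod p => (⟨D.u ^ k.val, P.pow_mem D.uP _⟩ : P)) ?_ _ _ (fun _ => rfl)
  constructor
  · intro k k' h
    have h1 : D.u ^ k.val = D.u ^ k'.val := congrArg Subtype.val h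
    have h2 := DefOnePrin.l_pow D k.val
    have h3 := DefOnePrin.l_pow D k'.val
    rw [ZMod.natCast_zmod_val] at h2 h3
    rw [← h2, ← h3]
    congr 1
    exact Subtype.ext h1
  · rintro ⟨y, hy⟩
    obtain ⟨i, rfl⟩ := D.gen y hy
    refine ⟨(i : ZMod p), Subtype.ext ?_⟩
    exact ColTools.pow_val D.u (up D) i

/-- bound at an involution inverting `P` -/
theorem inv_bound [Fintype P] (hp2 : p ≠ 2) {t : N} (ht : (t : G) * t = 1) (hκ : D.κ t = -1) {χ : G → ℂ}
    (hχ : IsCharacter G χ) : ∃ (z : ℤ) (m : ℕ), χ t = z ∧ |z| ≤ m ∧ ∑ y : P, χ y = p * m := by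
  classical
  have hcard : Nat.card P = p := card_P D
  have hfix := H15Fix.fixed_char (P := P) (E := Subgroup.zpowers (t : G)) (χ := χ) (fun h hh y hy =>
    D.norm h ((Subgroup.zpowers_le.2 t.2) hh) y hy) hχ
  have hE : ((⟨(t : G), Subgroup.mem_zpowers _⟩ : Subgroup.zpowers (t : G)) ^ 2 : Subgroup.zpowers (t : G)) = 1 :=
    Subtype.ext (by rw [pow_two]; exact ht)
  obtain ⟨n0, n1, h1, h2, -⟩ := ColTools.val_two hfix ⟨(t : G), Subgroup.mem_zpowers _⟩ hE
  have hp0 : (p : ℂ) ≠ 0 := by exact_mod_cast hp.out.ne_zero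
  have h3 : ∀ y : P, χ ((t : G) * y) = χ t := by
    intro y
    set z : G := (y : G) ^ ((p + 1) / 2) with hz
    have hzP : z ∈ P := P.pow_mem y.2 _
    have hyc : z * z = y := by
      have hodd : p % 2 = 1 := by
        rcases hp.out.eq_two_or_odd with h1 | h1
        · exact absurd h1 hp2
        · exact h1
      rw [hz, ← pow_add]
      have e : (p + 1) / 2 + (p + 1) / 2 = p + 1 := by omega
      rw [e, pow_succ]
      have h5 : (y : G) ^ p = 1 := by
        have := pow_card_eq_one' (x := y)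
        rw [hcard] at this
        exact congrArg Subtype.val this
      rw [h5, one_mul]
    have h4 := conj_inv D hκ (P.inv_mem hzP)
    rw [inv_inv] at h4
    have h5 : z⁻¹ * t * z⁻¹⁻¹ = t * y := by
      rw [inv_inv, ← hyc]
      have h6 : (t : G) * z = z⁻¹ * t := by
        have : (t : G) * z⁻¹ = z * t := mul_inv_eq_iff_eq_mul.1 h4
        calc (t : G) * z = z⁻¹ * (z * t) * z := by group
          _ = z⁻¹ * (t * z⁻¹) * z := by rw [this]
          _ = z⁻¹ * t := by group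
      rw [← mul_assoc, h6]
    rw [← h5]
    exact hχ.isClassFunction _ _
  refine ⟨n0 - n1, n0 + n1, ?_, ?_, ?_⟩
  · have h4 : (Nat.card P : ℂ)⁻¹ * ∑ y : P, χ ((t : G) * y) = χ t := by
      rw [Finset.sum_congr rfl fun y _ => h3 y, Finset.sum_const, Finset.card_univ, ← Nat.card_eq_fintype_card, hcard,
        nsmul_eq_mul, inv_mul_cancel_left₀ hp0]
    rw [← h4]
    push_cast
    exact h2
  · rw [abs_le]
    constructor <;> push_cast <;> omega
  · have h4 : (Nat.card P : ℂ)⁻¹ * ∑ y : P, χ ((1 : G) * y) = n0 + n1 := h1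
    rw [hcard] at h4
    simp only [one_mul] at h4
    have h5 : ∑ y : P, χ y = p * ((p : ℂ)⁻¹ * ∑ y : P, χ y) := by
      rw [mul_inv_cancel_left₀ hp0]
    rw [h5, h4]
    push_cast; ring

end loc

/-- sums over `P` -/
theorem sum_P_blk {D : Loc p P N C} [Fintype C] [Fintype P] {M : Ideal AlgInt} {θ : IrrCharacter C}
    {B : Set (IrrCharacter G)} (bk : Blk D M θ B) (hin : inN D θ = ⊤) (hθ : (θ : C → ℂ) 1 = 1)
    {χ : IrrCharacter G} (hχ : χ ∈ B) :
    ∑ y : P, (χ : G → ℂ) y = (χ : G → ℂ) 1 - ∑ i : ZMod p, dm D (χ : G → ℂ) θ i := by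
  classical
  letI : Fintype N := Fintype.ofFinite N
  have h := star D bk.hM bk.hpC bk.hC bk.hN bk.ht bk.hDG bk.hind hχ (v := 1) (l_one D) 0
  have h1 : ∀ n : N, (cjI D n θ : C → ℂ) 1 = 1 := by
    intro n; rw [cjI_apply, map_one, hθ]
  have hN : (Nat.card N : ℂ) ≠ 0 := by exact_mod_cast Nat.card_pos.ne'
  have h2 : ∑ k : ZMod p, (χ : G → ℂ) (D.u ^ k.val * ((1 : C) : G)) * stdAddChar (-((0 : ZMod p) * k)) =
      ∑ k : ZMod p, (χ : G → ℂ) (D.u ^ k.val) := by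
    refine Finset.sum_congr rfl fun k _ => ?_
    rw [zero_mul, neg_zero, AddChar.map_zero_eq_one, mul_one, Subgroup.coe_one, mul_one]
  have h3 : ∑ n : N, (cjI D n θ : C → ℂ) 1 * dm D (χ : G → ℂ) θ (0 * (D.κ n)⁻¹) = 0 := by
    refine Finset.sum_eq_zero fun n _ => ?_
    rw [zero_mul, dm, sub_self, mul_zero]
  rw [h2, h3, Finset.sum_congr rfl fun n _ => h1 n, Finset.sum_const, Finset.card_univ, ← Nat.card_eq_fintype_card,
    nsmul_eq_mul, hin, Subgroup.card_top, Subgroup.coe_one] at h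
  rw [sum_P_eq D]
  apply mul_left_cancel₀ hN
  rw [h]
  ring

end Cfsg.Agent.Lib.H15Pa
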