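import Cfsg.Agent.Lib.H15Pf

set_option autoImplicit false
set_option linter.all false

/-!
# Comparison of blocks through structure constants
-/

namespace Cfsg.Agent.Lib.H15Pa

open Cfsg Cfsg.Agent.Lib.BlockRing Cfsg.Agent.Lib.BlockGA Cfsg.Agent.Lib.BlockIdem
open Cfsg.Agent.Lib.BlockSecond Cfsg.Agent.Lib.BlockNormP Cfsg.Agent.Lib.BlockThird
open Cfsg.Agent.Lib.DefOneLoc Cfsg.Agent.Lib.DefOneOrd Cfsg.Agent.Lib.CharBasic Cfsg.Agent.Lib.DefOneGram
open Cfsg.Agent.Lib.DefOneBlk Cfsg.Agent.Lib.DefOne Cfsg.Agent.Lib.DefOneGen Cfsg.Agent.Lib.DefOneGalois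
open scoped ComplexConjugate
open ZMod (stdAddChar)

universe u

variable {G : Type u} [Group G] [Fintype G] {p : ℕ} [hp : Fact p.Prime] {P N C : Subgroup G}

theorem T_zero (D : Loc p P N C) {t : N} (ht : (t : G) * t = 1)
    (hV : ∀ v : C, D.l v = 0 → (v : G) ∈ Subgroup.center G) (hZ : ∀ z ∈ Subgroup.center G, z ^ 2 = 1 → z = 1)
    {c : C} (hc : D.l c = 1) (hcu : (c : G) ≠ D.u) :
    ∑ χ : IrrCharacter G, (χ : G → ℂ) t ^ 2 / (χ : G → ℂ) 1 * (χ : G → ℂ) c = 0 := by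
  have h0 := ColTools.struct_zero (a := (t : G)) (b := (t : G)) (c := (c : G)⁻¹) (by
    intro x y hx hy hxy
    have hsq : ∀ x : G, IsConj (t : G) x → x * x = 1 := by
      intro x hx
      obtain ⟨g, rfl⟩ := isConj_iff.1 hx
      have : g * t * g⁻¹ * (g * t * g⁻¹) = g * (t * t) * g⁻¹ := by group
      rw [this, ht]; group
    have hx2 := hsq x hx
    have hy2 := hsq y hy
    have hxi : x⁻¹ = x := inv_eq_of_mul_eq_one_left hx2
    have hyi : y⁻¹ = y := inv_eq_of_mul_eq_one_left hy2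
    have hcyx : (c : G) = y * x := by
      rw [← inv_inv (c : G), ← hxy, mul_inv_rev, hxi, hyi]
    have hconj : x * c * x⁻¹ = (c : G)⁻¹ := by
      rw [← hxy, hcyx]; group
    set v : C := ⟨D.u, D.PC D.uP⟩⁻¹ * c with hv
    have hlv : D.l v = 0 := by
      rw [hv, D.l_mul, l_inv, D.l_u, hc]; ring
    have hvZ := hV v hlv
    have hvc : ∀ g : G, g * (v : G) = v * g := fun g => Subgroup.mem_center_iff.1 hvZ g
    have hcv : (c : G) = D.u * v := by
      rw [hv]; change (c : G) = D.u * (D.u⁻¹ * c); group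
    have h1 : x * D.u * x⁻¹ = D.u⁻¹ * ((v : G)⁻¹ ^ 2) := by
      have h2 : x * D.u * x⁻¹ * v = (c : G)⁻¹ := by
        rw [← hconj, hcv]
        calc x * D.u * x⁻¹ * v = x * D.u * (x⁻¹ * v) := by group
          _ = x * D.u * (v * x⁻¹) := by rw [hvc]
          _ = x * (D.u * v) * x⁻¹ := by group
      have h3 : x * D.u * x⁻¹ = (c : G)⁻¹ * (v : G)⁻¹ := by rw [← h2]; group
      rw [h3, hcv, hvc D.u, mul_inv_rev, pow_two, mul_assoc]
    have h4 : (v : G) ^ p = 1 := by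
      apply hZ _ (Subgroup.pow_mem _ hvZ _)
      have h5 : (x * D.u * x⁻¹) ^ p = 1 := by
        rw [← MulAut.conj_apply, ← map_pow, up D, map_one]
      have hcomm : Commute D.u⁻¹ ((v : G)⁻¹ ^ 2) := by
        apply Commute.pow_right
        apply Commute.inv_inv
        exact hvc D.u
      rw [h1, hcomm.mul_pow, inv_pow, up D, inv_one, one_mul] at h5
      have h6 : ((v : G) ^ p) ^ 2 = (((v : G)⁻¹ ^ 2) ^ p)⁻¹ := by
        rw [inv_pow, inv_pow, inv_inv, ← pow_mul, ← pow_mul, mul_comm]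
      rw [h6, h5, inv_one]
    have h5 : ¬ p ∣ orderOf (v : G) := (D.l_reg v).1 hlv
    have h6 : orderOf (v : G) ∣ p := orderOf_dvd_of_pow_eq_one h4
    rcases (Nat.dvd_prime hp.out).1 h6 with h7 | h7
    · apply hcu
      rw [hcv, orderOf_eq_one_iff.1 h7, mul_one]
    · exact h5 (by rw [h7]))
  rw [← h0]
  refine Finset.sum_congr rfl fun χ _ => ?_
  rw [inv_inv]
  ring

theorem sum_T (D : Loc p P N C) [Fintype C] {t : N} (ht : (t : G) * t = 1)
    (hV : ∀ v : C, D.l v = 0 → (v : G) ∈ Subgroup.center G) (hZ : ∀ z ∈ Subgroup.center G, z ^ 2 = 1 → z = 1)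
    {θ : IrrCharacter C} (hT : TrivOn D (θ : C → ℂ)) (hθ : (θ : C → ℂ) 1 = 1) :
    (Nat.card C : ℂ) * ∑ χ : IrrCharacter G, (χ : G → ℂ) t ^ 2 / (χ : G → ℂ) 1 *
      ∑ i : ZMod p, dm D (χ : G → ℂ) θ i * stdAddChar i =
      p * ∑ χ : IrrCharacter G, (χ : G → ℂ) t ^ 2 / (χ : G → ℂ) 1 * (χ : G → ℂ) D.u := by
  classical
  have h1 : ∀ χ : IrrCharacter G, (Nat.card C : ℂ) * ((χ : G → ℂ) t ^ 2 / (χ : G → ℂ) 1 *
      ∑ i : ZMod p, dm D (χ : G → ℂ) θ i * stdAddChar i) =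
      ∑ c : C, p * (if D.l c = 1 then conj ((θ : C → ℂ) c) * ((χ : G → ℂ) t ^ 2 / (χ : G → ℂ) 1 * (χ : G → ℂ) c) else 0) := by
    intro χ
    rw [mul_left_comm, sum_dm_char, Finset.mul_sum, Finset.mul_sum]
    refine Finset.sum_congr rfl fun c _ => ?_
    split_ifs <;> ring
  rw [Finset.mul_sum, Finset.sum_congr rfl fun χ _ => h1 χ, Finset.sum_comm]
  rw [Finset.sum_eq_single (⟨D.u, D.PC D.uP⟩ : C)]
  · rw [← Finset.mul_sum]
    congr 1
    refine Finset.sum_congr rfl fun χ _ => ?_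
    rw [if_pos D.l_u, hT _ D.uP, hθ, map_one, one_mul]
  · intro c _ hc
    rw [← Finset.mul_sum]
    by_cases hl : D.l c = 1
    · simp only [hl, if_true]
      rw [← Finset.mul_sum, T_zero D ht hV hZ hl (fun h => hc (Subtype.ext h)), mul_zero, mul_zero]
    · simp only [hl, if_false, Finset.sum_const_zero, mul_zero]
  · intro h; exact absurd (Finset.mem_univ _) h

/-- an involution inverting `P` -/
theorem exists_t (D : Loc p P N C) (hp2 : p ≠ 2) (h2 : Nat.card (κu D).range = 2)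
    (hV : ∀ v : C, D.l v = 0 → (v : G) ∈ Subgroup.center G)
    (hZ : ∀ z ∈ Subgroup.center G, ∀ k : ℕ, z ^ 2 ^ k = 1 → z = 1) :
    ∃ t : N, (t : G) * t = 1 ∧ D.κ t = -1 := by
  obtain ⟨n, hn⟩ := exists_neg D h2
  obtain ⟨a, b, hb, hab⟩ := Nat.exists_eq_two_pow_mul_odd (orderOf_pos (n : G)).ne'
  have hodd : p % 2 = 1 := by
    rcases hp.out.eq_two_or_odd with h1 | h1
    · exact absurd h1 hp2
    · exact h1
  have hκ : D.κ (n ^ b) = -1 := by
    have h1 : κu D n = -1 := Units.ext (by rw [κu_apply, hn]; rfl)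
    have h3 : κu D (n ^ b) = -1 := by rw [map_pow, h1, hb.neg_one_pow]
    have h4 := congrArg Units.val h3
    rw [κu_apply] at h4
    exact h4
  refine ⟨n ^ b, ?_, hκ⟩
  have hmem : ((n ^ b * n ^ b : N) : G) ∈ C := by
    rw [← D.κ_eq, D.κ_mul, hκ]; ring
  set z : C := ⟨_, hmem⟩ with hz
  have hz1 : (z : G) ^ 2 ^ a = 1 := by
    change (((n ^ b * n ^ b : N) : G)) ^ 2 ^ a = 1
    have h1 : ((n ^ b * n ^ b : N) : G) = ((n : G) ^ (b)) ^ 2 := by push_cast; rw [pow_two]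
    rw [h1, ← pow_mul, ← pow_mul]
    have h3 : b * 2 * 2 ^ a = orderOf (n : G) * 2 := by rw [hab]; ring
    first
    | rw [h3, pow_mul, pow_orderOf_eq_one, one_pow]
    | rw [← mul_assoc, h3, pow_mul, pow_orderOf_eq_one, one_pow]
  have hlz : D.l z = 0 := by
    rw [D.l_reg]
    intro h1
    have h3 := h1.trans (orderOf_dvd_of_pow_eq_one hz1)
    have h4 := (Nat.prime_dvd_prime_iff_eq hp.out Nat.prime_two).1 (hp.out.dvd_of_dvd_pow h3)
    exact hp2 h4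
  have h5 := hZ _ (hV z hlz) a hz1
  change ((n ^ b * n ^ b : N) : G) = 1 at h5
  exact h5

/-! ### numerical part -/

theorem quad_id {A B x y : ℝ} (hA : A ≠ 0) (hB : B ≠ 0) (hAB : A + B ≠ 0) :
    x ^ 2 / A + y ^ 2 / B - (x + y) ^ 2 / (A + B) = (x * B - y * A) ^ 2 / (A * B * (A + B)) := by
  field_simp
  ring

/-- the block of the faithful character -/
theorem num_theta {p k x y : ℝ} (hp : 7 ≤ p) (hk : 1 ≤ k) (hx : |x| ≤ k + 1) (hy : |y| ≤ 1) (hxy : |x + y| ≤ k)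
    (hyint : y = 0 ∨ y = 1 ∨ y = -1) :
    (x ^ 2 / (1 + k * p) + y ^ 2 / (p - 2) - (x + y) ^ 2 / ((k + 1) * p - 1)) * p ^ 2 ≤ (p - 1) ^ 2 := by
  have h1 : (0 : ℝ) < 1 + k * p := by nlinarith
  have h2 : (0 : ℝ) < p - 2 := by linarith
  have h3 : (0 : ℝ) < (k + 1) * p - 1 := by nlinarith
  have e : x ^ 2 / (1 + k * p) + y ^ 2 / (p - 2) - (x + y) ^ 2 / ((k + 1) * p - 1) =
      (x * (p - 2) - y * (1 + k * p)) ^ 2 / ((1 + k * p) * (p - 2) * ((k + 1) * p - 1)) := by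
    have e1 : (k + 1) * p - 1 = (1 + k * p) + (p - 2) := by ring
    rw [e1] at h3 ⊢
    exact quad_id h1.ne' h2.ne' h3.ne'
  rw [e, div_mul_eq_mul_div, div_le_iff₀ (by positivity)]
  have h4 : |x * (p - 2) - y * (1 + k * p)| ≤ (2 * k + 1) * (p - 1) := by
    rw [abs_le] at hx hxy ⊢
    rcases hyint with rfl | rfl | rfl
    · constructor <;> nlinarith
    · constructor <;> nlinarith
    · constructor <;> nlinarith
  have h5 : (x * (p - 2) - y * (1 + k * p)) ^ 2 ≤ ((2 * k + 1) * (p - 1)) ^ 2 := by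
    rw [← sq_abs]
    exact pow_le_pow_left₀ (abs_nonneg _) h4 2
  have h6 : (2 * k + 1) ^ 2 * p ^ 2 ≤ (1 + k * p) * (p - 2) * ((k + 1) * p - 1) := by
    have h7 : (1 + k * p) * ((k + 1) * p - 1) = k * (k + 1) * p ^ 2 + (p - 1) := by ring
    have h8 : (1 + k * p) * (p - 2) * ((k + 1) * p - 1) = (p - 2) * (k * (k + 1) * p ^ 2 + (p - 1)) := by
      rw [← h7]; ring
    rw [h8]
    have h9 : (0 : ℝ) ≤ k * (k + 1) * p ^ 2 + (p - 1) := by
      have : (0 : ℝ) ≤ k * (k + 1) * p ^ 2 := by positivity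
      linarith
    have h10 : 5 * (k * (k + 1) * p ^ 2 + (p - 1)) ≤ (p - 2) * (k * (k + 1) * p ^ 2 + (p - 1)) :=
      mul_le_mul_of_nonneg_right (by linarith) h9
    refine le_trans ?_ h10
    have h11 : (0 : ℝ) ≤ (k ^ 2 + k - 1) * p ^ 2 := mul_nonneg (by nlinarith) (by positivity)
    nlinarith
  calc (x * (p - 2) - y * (1 + k * p)) ^ 2 * p ^ 2 ≤ ((2 * k + 1) * (p - 1)) ^ 2 * p ^ 2 := by
        exact mul_le_mul_of_nonneg_right h5 (by positivity)
    _ = (p - 1) ^ 2 * ((2 * k + 1) ^ 2 * p ^ 2) := by ring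
    _ ≤ (p - 1) ^ 2 * ((1 + k * p) * (p - 2) * ((k + 1) * p - 1)) := mul_le_mul_of_nonneg_left h6 (by positivity)

end Cfsg.Agent.Lib.H15Pa
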