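import Cfsg.Agent.Lib.H15Pg
import Cfsg.Agent.Lib.BRCore

set_option autoImplicit false
set_option linter.all false

/-!
# Perfect groups with a faithful character of degree `p - 2`: the centre is trivial
-/

namespace Cfsg.Agent.Lib.H15Pa

open Cfsg Cfsg.Agent.Lib.BlockRing Cfsg.Agent.Lib.BlockGA Cfsg.Agent.Lib.BlockIdem
open Cfsg.Agent.Lib.BlockSecond Cfsg.Agent.Lib.BlockNormP Cfsg.Agent.Lib.BlockThird
open Cfsg.Agent.Lib.DefOneLoc Cfsg.Agent.Lib.DefOneOrd Cfsg.Agent.Lib.CharBasic Cfsg.Agent.Lib.DefOneGram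
open Cfsg.Agent.Lib.DefOneBlk Cfsg.Agent.Lib.DefOne Cfsg.Agent.Lib.DefOneGen Cfsg.Agent.Lib.DefOneGalois
open scoped ComplexConjugate
open ZMod (stdAddChar)

universe u

/-! ### numerical part -/

/-- principal block, first case -/
theorem num_one {p m w : ℝ} (hp : 7 ≤ p) (hm : 0 ≤ m) (hw : |1 + w| ≤ m) :
    (p - 1) ^ 2 < (1 + w ^ 2 / (1 + m * p) - (1 + w) ^ 2 / (1 + (1 + m * p))) * p ^ 2 := by
  have h1 : (0 : ℝ) < 1 + m * p := by nlinarith
  have h2 : (0 : ℝ) < 1 + (1 + m * p) := by nlinarith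
  have e := quad_id (x := 1) (y := w) one_ne_zero h1.ne' h2.ne'
  rw [one_pow, div_one] at e
  rw [e, div_mul_eq_mul_div, lt_div_iff₀ (by positivity)]
  rw [abs_le] at hw
  have h3 : m * (p - 1) + 2 ≤ 1 * (1 + m * p) - w * 1 := by nlinarith
  have h4 : 0 ≤ m * (p - 1) := mul_nonneg hm (by linarith)
  have h5 : (m * (p - 1) + 2) ^ 2 ≤ (1 * (1 + m * p) - w * 1) ^ 2 := pow_le_pow_left₀ (by linarith) h3 2
  have h6 : (p - 1) ^ 2 * (1 * (1 + m * p) * (1 + (1 + m * p))) < (m * (p - 1) + 2) ^ 2 * p ^ 2 := by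
    have h7 : (m * (p - 1) + 2) ^ 2 * p ^ 2 - (p - 1) ^ 2 * (1 * (1 + m * p) * (1 + (1 + m * p))) =
        m * (p - 1) * p * (p + 3) + (2 * p ^ 2 + 4 * p - 2) := by ring
    have h8 : 0 ≤ m * (p - 1) * p * (p + 3) := by
      apply mul_nonneg (mul_nonneg h4 (by linarith)) (by linarith)
    nlinarith
  calc (p - 1) ^ 2 * (1 * (1 + m * p) * (1 + (1 + m * p))) < (m * (p - 1) + 2) ^ 2 * p ^ 2 := h6
    _ ≤ _ := mul_le_mul_of_nonneg_right h5 (by positivity)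

/-- principal block, second case -/
theorem num_two {p m w : ℝ} (hp : 7 ≤ p) (hm : 1 ≤ m) (hw : |w| ≤ m - 1) :
    (p - 1) ^ 2 < (1 - w ^ 2 / (m * p - 1) + (w - 1) ^ 2 / (m * p - 1 - 1)) * p ^ 2 := by
  have h0 : 7 ≤ m * p := by nlinarith
  have h1 : (0 : ℝ) < m * p - 1 := by linarith
  have h2 : (0 : ℝ) < m * p - 1 - 1 := by linarith
  have e := quad_id (x := 1) (y := w - 1) (A := 1) (B := m * p - 1 - 1) one_ne_zero h2.ne' (by
    have : 1 + (m * p - 1 - 1) = m * p - 1 := by ring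
    rw [this]; exact h1.ne')
  have e1 : 1 + (m * p - 1 - 1) = m * p - 1 := by ring
  have e2 : 1 + (w - 1) = w := by ring
  rw [e1, e2, one_pow, div_one] at e
  have e3 : 1 - w ^ 2 / (m * p - 1) + (w - 1) ^ 2 / (m * p - 1 - 1) =
    (1 * (m * p - 1 - 1) - (w - 1) * 1) ^ 2 / (1 * (m * p - 1 - 1) * (m * p - 1)) := by
    rw [← e]; ring
  rw [e3, div_mul_eq_mul_div, lt_div_iff₀ (by positivity)]
  rw [abs_le] at hw
  have h3 : m * (p - 1) ≤ 1 * (m * p - 1 - 1) - (w - 1) * 1 := by nlinarith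
  have h4 : 0 ≤ m * (p - 1) := mul_nonneg (by linarith) (by linarith)
  have h5 : (m * (p - 1)) ^ 2 ≤ (1 * (m * p - 1 - 1) - (w - 1) * 1) ^ 2 := pow_le_pow_left₀ h4 h3 2
  have h6 : (p - 1) ^ 2 * (1 * (m * p - 1 - 1) * (m * p - 1)) < (m * (p - 1)) ^ 2 * p ^ 2 := by
    have h7 : (m * (p - 1)) ^ 2 * p ^ 2 - (p - 1) ^ 2 * (1 * (m * p - 1 - 1) * (m * p - 1)) =
        (p - 1) ^ 2 * (3 * (m * p) - 2) := by ring
    have h8 : 0 < (p - 1) ^ 2 * (3 * (m * p) - 2) := by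
      apply mul_pos (pow_pos (by linarith) 2) (by linarith)
    linarith
  calc (p - 1) ^ 2 * (1 * (m * p - 1 - 1) * (m * p - 1)) < (m * (p - 1)) ^ 2 * p ^ 2 := h6
    _ ≤ _ := mul_le_mul_of_nonneg_right h5 (by positivity)

variable {G : Type u} [Group G] [Fintype G] {p : ℕ} [hp : Fact p.Prime] {P N C : Subgroup G}

section blk

variable {D : Loc p P N C} [Fintype C] {M : Ideal AlgInt} {θ : IrrCharacter C} {B : Set (IrrCharacter G)}
  (bk : Blk D M θ B) (hin : inN D θ = ⊤) (hθ : (θ : C → ℂ) 1 = 1) (hHT : Nat.card (HT D θ) = 2) (hp2 : p ≠ 2)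
  {t : N} (ht : (t : G) * t = 1) (hκ : D.κ t = -1)

include bk hin hθ hp2 ht hκ in
/-- a nonexceptional character -/
theorem data_X {a : B} (ha : a ∉ Set.range bk.Y) : ∃ (z : ℤ) (m : ℕ), ((a : IrrCharacter G) : G → ℂ) t = z ∧ |z| ≤ m ∧
    (charDegree ((a : IrrCharacter G) : G → ℂ) : ℤ) = p * m + (p - 1) * bk.s a := by
  classical
  letI : Fintype P := Fintype.ofFinite P
  obtain ⟨z, m, h1, h2, h3⟩ := inv_bound D hp2 ht hκ (a : IrrCharacter G).2.isCharacter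
  refine ⟨z, m, h1, h2, ?_⟩
  rw [sum_P_blk bk hin hθ a.2, DefOnePrin.sum_zmod_units, dm, sub_self, zero_add,
    Finset.sum_congr rfl fun i _ => bk.hs1 a ha i, Finset.sum_const, Finset.card_univ, ZMod.card_units, nsmul_eq_mul,
    one_eq, Nat.cast_sub hp.out.one_lt.le] at h3
  have h4 : ((charDegree ((a : IrrCharacter G) : G → ℂ) : ℤ) : ℂ) = ((p * m + (p - 1) * bk.s a : ℤ) : ℂ) := by
    push_cast
    push_cast at h3
    linear_combination h3
  exact_mod_cast h4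

include bk hin hθ hHT hp2 ht hκ in
/-- an exceptional character -/
theorem data_Y (q : (ZMod p)ˣ ⧸ HT D θ) : ∃ (z : ℤ) (m : ℕ), ((bk.Y q : IrrCharacter G) : G → ℂ) t = z ∧ |z| ≤ m ∧
    (charDegree ((bk.Y q : IrrCharacter G) : G → ℂ) : ℤ) = p * m + 2 * bk.s (bk.Y q) := by
  classical
  letI : Fintype P := Fintype.ofFinite P
  obtain ⟨z, m, h1, h2, h3⟩ := inv_bound D hp2 ht hκ (bk.Y q : IrrCharacter G).2.isCharacter
  refine ⟨z, m, h1, h2, ?_⟩
  rw [sum_P_blk bk hin hθ (bk.Y q).2, sum_dm_Y bk, hHT, one_eq] at h3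
  have h4 : ((charDegree ((bk.Y q : IrrCharacter G) : G → ℂ) : ℤ) : ℂ) = ((p * m + 2 * bk.s (bk.Y q) : ℤ) : ℂ) := by
    push_cast
    push_cast at h3
    linear_combination h3
  exact_mod_cast h4

end blk

theorem not_dvd_t (hp2 : p ≠ 2) {t : G} (ht : t * t = 1) : ¬ p ∣ orderOf t := by
  intro h
  have h1 : orderOf t ∣ 2 := orderOf_dvd_of_pow_eq_one (by rw [pow_two]; exact ht)
  exact hp2 ((Nat.prime_dvd_prime_iff_eq hp.out Nat.prime_two).1 (h.trans h1))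

theorem not_dvd_one' : ¬ p ∣ orderOf (1 : G) := by
  rw [orderOf_one]; exact hp.out.one_lt.ne' ∘ Nat.dvd_one.1

end Cfsg.Agent.Lib.H15Pa
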