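import Cfsg.Agent.Lib.H15Ph

set_option autoImplicit false
set_option linter.all false

/-!
# Perfect groups with a faithful character of degree `p - 2`: the centre is trivial
-/

namespace Cfsg.Agent.Lib.H15Pa

open Cfsg Cfsg.Agent.Lib.BlockRing Cfsg.Agent.Lib.BlockGA Cfsg.Agent.Lib.BlockIdem
open Cfsg.Agent.Lib.BlockSecond Cfsg.Agent.Lib.BlockNormP Cfsg.Agent.Lib.BlockThird
open Cfsg.Agent.Lib.DefOneLoc Cfsg.Agent.Lib.DefOneOrd Cfsg.Agent.Lib.CharBasic Cfsg.Agent.Lib.DefOneGram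
open Cfsg.Agent.Lib.DefOneBlk Cfsg.Agent.Lib.DefOne Cfsg.Agent.Lib.DefOneGen Cfsg.Agent.Lib.DefOneGalois
open scoped ComplexConjugate
open ZMod (stdAddChar)

universe u

variable {G : Type u} [Group G] [Fintype G] {p : ℕ} [hp : Fact p.Prime] {P N C : Subgroup G}

section blk

variable {D : Loc p P N C} [Fintype C] {M : Ideal AlgInt} {θ : IrrCharacter C} {B : Set (IrrCharacter G)}
  (bk : Blk D M θ B)

theorem Y_reg_eq (hHT : Nat.card (HT D θ) = 2) (q q' : (ZMod p)ˣ ⧸ HT D θ) {g : G} (hg : ¬ p ∣ orderOf g) :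
    ((bk.Y q : IrrCharacter G) : G → ℂ) g = ((bk.Y q' : IrrCharacter G) : G → ℂ) g := by
  obtain ⟨a, b, hab, ha, hb, hall⟩ := exists_two bk hHT
  have h1 := rel_two bk hab ha hb hall q hg
  have h2 := rel_two bk hab ha hb hall q' hg
  rw [s_Y bk q' q] at h2
  have h3 : (bk.s (bk.Y q) : ℂ) ≠ 0 := by
    rcases bk.hs (bk.Y q) with h | h <;> rw [h] <;> norm_num
  apply mul_left_cancel₀ h3
  linear_combination h1 - h2

end blk

/-- `χ(t)² / χ(1)` -/
noncomputable def fT (t : G) (χ : IrrCharacter G) : ℂ := (χ : G → ℂ) t ^ 2 / (χ : G → ℂ) 1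

theorem fT_eq {t : G} {χ : IrrCharacter G} {z : ℤ} (hz : (χ : G → ℂ) t = z) :
    fT t χ = (((z : ℝ) ^ 2 / (charDegree (χ : G → ℂ) : ℝ) : ℝ) : ℂ) := by
  rw [fT, hz, one_eq]; push_cast; rfl

section princ

variable {D : Loc p P N C} [Fintype C] {M : Ideal AlgInt} 
  (bk : Blk D M (triv C) (principalBlock M G)) (hHT : Nat.card (HT D (triv C)) = 2) (hp7 : 7 ≤ p)
  {t : N} (ht : (t : G) * t = 1) (hκ : D.κ t = -1)

include hHT hp7 ht hκ in
theorem princ_aux {a b : principalBlock M G} (hab : a ≠ b) (ha : a ∉ Set.range bk.Y) (hb : b ∉ Set.range bk.Y)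
    (hall : ∀ χ : principalBlock M G, χ ∉ Set.range bk.Y → χ = a ∨ χ = b) (hat : (a : IrrCharacter G) = triv G) :
    ∃ S : ℝ, (∑ χ : IrrCharacter G, fT (t : G) χ * ∑ i : ZMod p, dm D (χ : G → ℂ) (triv C) i * stdAddChar i) = S ∧
      ((p : ℝ) - 1) ^ 2 < S * p ^ 2 := by
  classical
  have hp2 : p ≠ 2 := by omega
  have hin := inN_triv D
  have hθ : ((triv C : IrrCharacter C) : C → ℂ) 1 = 1 := rfl
  have hsa : bk.s a = -1 := by
    have h1 := bk.hs1 a ha 1
    rw [hat, BRCore.dm_triv] at h1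
    exact_mod_cast h1.symm
  obtain ⟨q⟩ : Nonempty ((ZMod p)ˣ ⧸ HT D (triv C)) := inferInstance
  obtain ⟨w, mw, hw, hwm, hw1⟩ := data_X bk hin hθ hp2 ht hκ hb
  obtain ⟨y, my, hy, hym, hy1⟩ := data_Y bk hin hθ hHT hp2 ht hκ q
  have rt := rel_two bk hab ha hb hall q (not_dvd_t hp2 ht)
  have r1 := rel_two bk hab ha hb hall q (not_dvd_one' (G := G) (p := p))
  have htriv : ∀ g : G, ((triv G : IrrCharacter G) : G → ℂ) g = 1 := fun g => rfl
  rw [hat, hsa, htriv, hw, hy] at rt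
  rw [hat, hsa, htriv, one_eq, one_eq] at r1
  have rt' : -1 + bk.s b * w + bk.s (bk.Y q) * y = 0 := by
    have : ((-1 + bk.s b * w + bk.s (bk.Y q) * y : ℤ) : ℂ) = ((0 : ℤ) : ℂ) := by
      push_cast; push_cast at rt; linear_combination rt
    exact_mod_cast this
  have r1' : -1 + bk.s b * (charDegree ((b : IrrCharacter G) : G → ℂ) : ℤ) +
      bk.s (bk.Y q) * (charDegree ((bk.Y q : IrrCharacter G) : G → ℂ) : ℤ) = 0 := by
    have : ((-1 + bk.s b * (charDegree ((b : IrrCharacter G) : G → ℂ) : ℤ) +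
      bk.s (bk.Y q) * (charDegree ((bk.Y q : IrrCharacter G) : G → ℂ) : ℤ) : ℤ) : ℂ) = ((0 : ℤ) : ℂ) := by
      push_cast; push_cast at r1; linear_combination r1
    exact_mod_cast this
  have hw0 := BlockDeg.charDegree_pos (b : IrrCharacter G).2
  have hy0 := BlockDeg.charDegree_pos (bk.Y q : IrrCharacter G).2
  have hfa : fT (t : G) (a : IrrCharacter G) = 1 := by
    rw [hat, fT, htriv, htriv]; norm_num
  have hfY : ∀ q', fT (t : G) (bk.Y q' : IrrCharacter G) = fT (t : G) (bk.Y q : IrrCharacter G) := by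
    intro q'
    rw [fT, fT, Y_reg_eq bk hHT q' q (not_dvd_t hp2 ht), Y_reg_eq bk hHT q' q (not_dvd_one' (G := G) (p := p))]
  have hsum := sum_block bk hab ha hb hall (fT (t : G)) _ hfY q
  rw [hfa, hsa, fT_eq hw, fT_eq hy] at hsum
  set w1 : ℕ := charDegree ((b : IrrCharacter G) : G → ℂ) with hw1d
  set y1 : ℕ := charDegree ((bk.Y q : IrrCharacter G) : G → ℂ) with hy1d
  have hp7' : (7 : ℝ) ≤ p := by exact_mod_cast hp7
  have hp7'' : (7 : ℤ) ≤ p := by exact_mod_cast hp7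
  rcases bk.hs b with hsb | hsb
  · -- second case
    rw [hsb] at rt' r1' hw1 hsum
    have hs : bk.s (bk.Y q) = -1 := by
      rcases bk.hs (bk.Y q) with h | h
      · exfalso
        rw [h] at r1'
        omega
      · exact h
    rw [hs] at rt' r1' hsum
    have hy1' : (y1 : ℝ) = w1 - 1 := by
      have : (y1 : ℤ) = w1 - 1 := by linarith
      exact_mod_cast this
    have hy' : (y : ℝ) = w - 1 := by
      have : y = w - 1 := by linarith
      rw [this]; push_cast; ring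
    have hw1' : (w1 : ℝ) = ((mw : ℝ) + 1) * p - 1 := by
      have : (w1 : ℤ) = (mw + 1) * p - 1 := by rw [hw1]; ring
      have h2 : ((w1 : ℤ) : ℝ) = (((mw + 1) * p - 1 : ℤ) : ℝ) := by rw [this]
      push_cast at h2
      exact h2
    refine ⟨1 - (w : ℝ) ^ 2 / w1 + (y : ℝ) ^ 2 / y1, ?_, ?_⟩
    · rw [hsum]; push_cast; ring
    · rw [hy1', hy', hw1']
      apply num_two hp7' (by have : (0 : ℝ) ≤ mw := Nat.cast_nonneg _; linarith)
      have : |((w : ℤ) : ℝ)| ≤ mw := by exact_mod_cast hwm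
      rw [add_sub_cancel_right]
      exact this
  · rw [hsb] at rt' r1' hw1 hsum
    have hs : bk.s (bk.Y q) = 1 := by
      rcases bk.hs (bk.Y q) with h | h
      · exact h
      · exfalso
        rw [h] at r1'
        omega
    rw [hs] at rt' r1' hsum hy1
    have hy1' : (y1 : ℝ) = 1 + w1 := by
      have : (y1 : ℤ) = 1 + w1 := by linarith
      exact_mod_cast this
    have hy' : y = 1 + w := by linarith
    have hmm : (my : ℤ) = mw - 1 := by
      have h1 : (p : ℤ) * my = p * (mw - 1) := by linarith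
      exact mul_left_cancel₀ (by omega) h1
    have hw1' : (w1 : ℝ) = 1 + (my : ℝ) * p := by
      have : (w1 : ℤ) = 1 + my * p := by rw [hw1, hmm]; ring
      exact_mod_cast this
    refine ⟨1 + (w : ℝ) ^ 2 / w1 - (y : ℝ) ^ 2 / y1, ?_, ?_⟩
    · rw [hsum]; push_cast; ring
    · rw [hy1', hw1', hy']
      push_cast
      apply num_one hp7' (Nat.cast_nonneg _)
      rw [hy'] at hym
      have : |((1 + w : ℤ) : ℝ)| ≤ my := by exact_mod_cast hym
      push_cast at this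
      exact this

include bk hHT hp7 ht hκ in
theorem princ_bound :
    ∃ S : ℝ, (∑ χ : IrrCharacter G, fT (t : G) χ * ∑ i : ZMod p, dm D (χ : G → ℂ) (triv C) i * stdAddChar i) = S ∧
      ((p : ℝ) - 1) ^ 2 < S * p ^ 2 := by
  classical
  have hprime := isPrime bk.hM
  obtain ⟨a, b, hab, ha, hb, hall⟩ := exists_two bk hHT
  have hT : (⟨triv G, triv_mem⟩ : principalBlock M G) ∉ Set.range bk.Y := by
    rintro ⟨q, hq⟩
    have hq' : (bk.Y q : IrrCharacter G) = triv G := congrArg Subtype.val hq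
    have hcard := card_quot_eq bk hHT
    haveI : Nontrivial ((ZMod p)ˣ ⧸ HT D (triv C)) := Finite.one_lt_card_iff_nontrivial.1 (by omega)
    obtain ⟨q', hq2⟩ := exists_ne q
    obtain ⟨i, rfl⟩ := QuotientGroup.mk_surjective q'
    have h1 := bk.hs2 i q
    rw [if_neg hq2, hq', BRCore.dm_triv] at h1
    norm_num at h1
  rcases hall _ hT with h | h
  · exact princ_aux bk hHT hp7 ht hκ hab ha hb hall (by rw [← h])
  · exact princ_aux bk hHT hp7 ht hκ hab.symm hb ha (fun χ hχ => (hall χ hχ).symm) (by rw [← h])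

end princ

section theta

variable {D : Loc p P N C} [Fintype C] {M : Ideal AlgInt} {θ : IrrCharacter C} {B : Set (IrrCharacter G)}
  (bk : Blk D M θ B) (hin : inN D θ = ⊤) (hθ : (θ : C → ℂ) 1 = 1) (hHT : Nat.card (HT D θ) = 2) (hp7 : 7 ≤ p)
  {t : N} (ht : (t : G) * t = 1) (hκ : D.κ t = -1) (q : (ZMod p)ˣ ⧸ HT D θ)
  (hdeg : charDegree ((bk.Y q : IrrCharacter G) : G → ℂ) = p - 2) (hs : bk.s (bk.Y q) = -1)

include hin hθ hHT hp7 ht hκ hdeg hs in
theorem theta_aux {a b : B} (hab : a ≠ b) (ha : a ∉ Set.range bk.Y) (hb : b ∉ Set.range bk.Y)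
    (hall : ∀ χ : B, χ ∉ Set.range bk.Y → χ = a ∨ χ = b) (hsa : bk.s a = -1) :
    ∃ (S : ℝ) (k : ℕ),
      (∑ χ : IrrCharacter G, fT (t : G) χ * ∑ i : ZMod p, dm D (χ : G → ℂ) θ i * stdAddChar i) = S ∧
      charDegree ((a : IrrCharacter G) : G → ℂ) = 1 + k * p ∧ (1 ≤ k → S * p ^ 2 ≤ ((p : ℝ) - 1) ^ 2) := by
  classical
  have hp2 : p ≠ 2 := by omega
  obtain ⟨x, mx, hx, hxm, hx1⟩ := data_X bk hin hθ hp2 ht hκ ha
  obtain ⟨w, mw, hw, hwm, hw1⟩ := data_X bk hin hθ hp2 ht hκ hb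
  obtain ⟨y, my, hy, hym, hy1⟩ := data_Y bk hin hθ hHT hp2 ht hκ q
  have rt := rel_two bk hab ha hb hall q (not_dvd_t hp2 ht)
  have r1 := rel_two bk hab ha hb hall q (not_dvd_one' (G := G) (p := p))
  rw [hsa, hx, hw, hy, hs] at rt
  rw [hsa, one_eq, one_eq, one_eq, hdeg, hs, Nat.cast_sub hp.out.two_le] at r1
  rw [hsa] at hx1
  rw [hdeg, hs, Nat.cast_sub hp.out.two_le] at hy1
  have rt' : -x + bk.s b * w - y = 0 := by
    have : ((-x + bk.s b * w - y : ℤ) : ℂ) = ((0 : ℤ) : ℂ) := by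
      push_cast; push_cast at rt; linear_combination rt
    exact_mod_cast this
  set x1 : ℕ := charDegree ((a : IrrCharacter G) : G → ℂ) with hx1d
  set w1 : ℕ := charDegree ((b : IrrCharacter G) : G → ℂ) with hw1d
  have r1' : -(x1 : ℤ) + bk.s b * (w1 : ℤ) - (p - 2) = 0 := by
    have : ((-(x1 : ℤ) + bk.s b * (w1 : ℤ) - (p - 2) : ℤ) : ℂ) = ((0 : ℤ) : ℂ) := by
      push_cast; push_cast at r1; linear_combination r1
    exact_mod_cast this
  have hx0 : 0 < x1 := BlockDeg.charDegree_pos (a : IrrCharacter G).2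
  have hw0 : 0 < w1 := BlockDeg.charDegree_pos (b : IrrCharacter G).2
  have hp7' : (7 : ℝ) ≤ p := by exact_mod_cast hp7
  have hp7'' : (7 : ℤ) ≤ p := by exact_mod_cast hp7
  have hsb : bk.s b = 1 := by
    rcases bk.hs b with h | h
    · exact h
    · exfalso
      rw [h] at r1'
      omega
  rw [hsb] at rt' r1' hw1
  have hmy : (my : ℤ) = 1 := by
    have h1 : (p : ℤ) * my = p * 1 := by push_cast at hy1; linarith
    exact mul_left_cancel₀ (by omega) h1
  have hmx : 1 ≤ mx := by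
    by_contra h
    have h0 : mx = 0 := by omega
    rw [h0] at hx1
    push_cast at hx1
    omega
  obtain ⟨k, rfl⟩ : ∃ k, mx = k + 1 := ⟨mx - 1, by omega⟩
  have hx1' : (x1 : ℤ) = 1 + k * p := by rw [hx1]; push_cast; ring
  have hmw : (mw : ℤ) = k := by
    have h1 : (p : ℤ) * mw = p * k := by linarith
    exact mul_left_cancel₀ (by omega) h1
  have hw1' : (w1 : ℤ) = (k + 1) * p - 1 := by rw [hw1, hmw]; ring
  have hwxy : w = x + y := by linarith
  have hfY : ∀ q', fT (t : G) (bk.Y q' : IrrCharacter G) = fT (t : G) (bk.Y q : IrrCharacter G) := by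
    intro q'
    rw [fT, fT, Y_reg_eq bk hHT q' q (not_dvd_t hp2 ht), Y_reg_eq bk hHT q' q (not_dvd_one' (G := G) (p := p))]
  have hsum := sum_block bk hab ha hb hall (fT (t : G)) _ hfY q
  rw [hsa, hsb, hs, fT_eq hx, fT_eq hw, fT_eq hy, hdeg, Nat.cast_sub hp.out.two_le] at hsum
  refine ⟨(x : ℝ) ^ 2 / x1 + (y : ℝ) ^ 2 / ((p : ℝ) - 2) - (w : ℝ) ^ 2 / w1, k, ?_, by exact_mod_cast hx1', ?_⟩
  · rw [hsum]; push_cast; ring
  · intro hk
    have e1 : (x1 : ℝ) = 1 + (k : ℝ) * p := by exact_mod_cast hx1'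
    have e2 : (w1 : ℝ) = ((k : ℝ) + 1) * p - 1 := by
      have h2 : ((w1 : ℤ) : ℝ) = (((k + 1) * p - 1 : ℤ) : ℝ) := by rw [hw1']
      push_cast at h2
      exact h2
    have e3 : (w : ℝ) = x + y := by rw [hwxy]; push_cast; ring
    rw [e1, e2, e3]
    have hy1' : |y| ≤ 1 := by rw [← hmy]; exact hym
    apply num_theta hp7' (by exact_mod_cast hk)
    · have : |((x : ℤ) : ℝ)| ≤ ((k + 1 : ℕ) : ℝ) := by exact_mod_cast hxm
      push_cast at this
      exact this
    · exact_mod_cast hy1'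
    · rw [← e3]
      have h3 : |w| ≤ (k : ℤ) := by rw [← hmw]; exact hwm
      exact_mod_cast h3
    · rw [abs_le] at hy1'
      have h3 : y = 0 ∨ y = 1 ∨ y = -1 := by omega
      rcases h3 with h | h | h <;> rw [h] <;> norm_num

include hin hθ hHT hp7 ht hκ hdeg hs in
theorem theta_bound : ∃ (a : B) (S : ℝ) (k : ℕ), a ∉ Set.range bk.Y ∧ bk.s a = -1 ∧
      (∑ χ : IrrCharacter G, fT (t : G) χ * ∑ i : ZMod p, dm D (χ : G → ℂ) θ i * stdAddChar i) = S ∧
      charDegree ((a : IrrCharacter G) : G → ℂ) = 1 + k * p ∧ (1 ≤ k → S * p ^ 2 ≤ ((p : ℝ) - 1) ^ 2) := by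
  classical
  obtain ⟨a, b, hab, ha, hb, hall⟩ := exists_two bk hHT
  rcases bk.hs a with hsa | hsa
  · rcases bk.hs b with hsb | hsb
    · exfalso
      have hp2 : p ≠ 2 := by omega
      obtain ⟨x, mx, hx, hxm, hx1⟩ := data_X bk hin hθ hp2 ht hκ ha
      obtain ⟨w, mw, hw, hwm, hw1⟩ := data_X bk hin hθ hp2 ht hκ hb
      have r1 := rel_two bk hab ha hb hall q (not_dvd_one' (G := G) (p := p))
      rw [hsa, hsb, one_eq, one_eq, one_eq, hdeg, hs] at r1
      rw [hsa] at hx1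
      rw [hsb] at hw1
      have r1' : charDegree ((a : IrrCharacter G) : G → ℂ) + charDegree ((b : IrrCharacter G) : G → ℂ) = p - 2 := by
        have : ((charDegree ((a : IrrCharacter G) : G → ℂ) + charDegree ((b : IrrCharacter G) : G → ℂ) : ℕ) : ℂ) =
            ((p - 2 : ℕ) : ℂ) := by
          push_cast at r1 ⊢
          linear_combination r1
        exact_mod_cast this
      have h1 : (0 : ℤ) ≤ p * mx := by positivity
      have h2 : (0 : ℤ) ≤ p * mw := by positivity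
      omega
    · obtain ⟨S, k, h1, h2, h3⟩ := theta_aux bk hin hθ hHT hp7 ht hκ q hdeg hs hab.symm hb ha
        (fun χ hχ => (hall χ hχ).symm) hsb
      exact ⟨b, S, k, hb, hsb, h1, h2, h3⟩
  · obtain ⟨S, k, h1, h2, h3⟩ := theta_aux bk hin hθ hHT hp7 ht hκ q hdeg hs hab ha hb hall hsa
    exact ⟨a, S, k, ha, hsa, h1, h2, h3⟩

end theta

end Cfsg.Agent.Lib.H15Pa
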