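import Cfsg.Agent.Lib.H15Pi
import Cfsg.Agent.Lib.H15RealP

set_option autoImplicit false
set_option linter.all false

/-!
# Perfect groups with a faithful character of degree `p - 2`: the order of the group
-/

namespace Cfsg.Agent.Lib.H15Pa

open Cfsg Cfsg.Agent.Lib.BlockRing Cfsg.Agent.Lib.BlockGA Cfsg.Agent.Lib.BlockIdem
open Cfsg.Agent.Lib.BlockSecond Cfsg.Agent.Lib.BlockNormP Cfsg.Agent.Lib.BlockThird
open Cfsg.Agent.Lib.DefOneLoc Cfsg.Agent.Lib.DefOneOrd Cfsg.Agent.Lib.CharBasic Cfsg.Agent.Lib.DefOneGram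
open Cfsg.Agent.Lib.DefOneBlk Cfsg.Agent.Lib.DefOne Cfsg.Agent.Lib.DefOneGen Cfsg.Agent.Lib.DefOneGalois
open scoped ComplexConjugate
open ZMod (stdAddChar)

universe u

variable {G : Type u} [Group G] [Fintype G] {p : ℕ} [hp : Fact p.Prime]

theorem eq_triv_of_dm {P N C : Subgroup G} {D : Loc p P N C} [Fintype C] {θ : IrrCharacter C} {i : ZMod p}
    (h : dm D ((triv G : IrrCharacter G) : G → ℂ) θ i = -1) : θ = triv C := by
  classical
  by_contra hne
  have h1 : mu D ((triv G : IrrCharacter G) : G → ℂ) θ 0 = 0 := by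
    change classInner ((triv C : IrrCharacter C) : C → ℂ) (LT D θ 0 : C → ℂ) = 0
    rw [LT_zero, irr_orthonormal, if_neg (fun h => hne h.symm)]
  have h2 : mu D ((triv G : IrrCharacter G) : G → ℂ) θ i = 0 ∨ mu D ((triv G : IrrCharacter G) : G → ℂ) θ i = 1 := by
    change classInner ((triv C : IrrCharacter C) : C → ℂ) (LT D θ i : C → ℂ) = 0 ∨
      classInner ((triv C : IrrCharacter C) : C → ℂ) (LT D θ i : C → ℂ) = 1
    rw [irr_orthonormal]
    split_ifs <;> simp
  rw [dm, h1, sub_zero] at h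
  rcases h2 with h2 | h2 <;> rw [h2] at h <;> norm_num at h

section

variable (Q : Sylow p G) (hQ : Nat.card Q = p)
  {D : Loc p (Q : Subgroup G) (Subgroup.normalizer ((Q : Subgroup G) : Set G))
      (Subgroup.centralizer ((Q : Subgroup G) : Set G))}
  [Fintype (Subgroup.centralizer ((Q : Subgroup G) : Set G))] {M : Ideal AlgInt}
  {θ : IrrCharacter (Subgroup.centralizer ((Q : Subgroup G) : Set G))} {B : Set (IrrCharacter G)}
  (bk : Blk D M θ B) (i0 : (ZMod p)ˣ) 
  (hdeg : charDegree ((bk.Y (i0 : (ZMod p)ˣ ⧸ HT D θ) : IrrCharacter G) : G → ℂ) = p - 2)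
  (hfaith : ∀ g : G, ((bk.Y (i0 : (ZMod p)ˣ ⧸ HT D θ) : IrrCharacter G) : G → ℂ) g =
    ((bk.Y (i0 : (ZMod p)ˣ ⧸ HT D θ) : IrrCharacter G) : G → ℂ) 1 → g = 1) (hnn : ¬ (Q : Subgroup G).Normal) (hp7 : 7 ≤ p)
  (hG : commutator G = ⊤)

include hQ hdeg hfaith hnn hp7 hG in
theorem trivial_V : θ = triv (Subgroup.centralizer ((Q : Subgroup G) : Set G)) ∧
    ∀ v : Subgroup.centralizer ((Q : Subgroup G) : Set G), D.l v = 0 → v = 1 := by
  classical
  have hp2 : p ≠ 2 := by omega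
  have hp3 : 3 < p := by omega
  obtain ⟨c, hc⟩ := ColTools.exists_counts_prime (bk.Y (i0 : (ZMod p)ˣ ⧸ HT D θ) : IrrCharacter G).2.isCharacter D.u (up D)
  obtain ⟨hs, he, hd, h0⟩ := local_num bk i0 hdeg hfaith hnn hp3 hc
  have hin := inN_top bk i0 hdeg hfaith hnn hp3 hc
  have hHT := card_HT bk i0 hdeg hfaith hnn hp3 hc
  have hθ : (θ : Subgroup.centralizer ((Q : Subgroup G) : Set G) → ℂ) 1 = 1 := by rw [one_eq, hd, Nat.cast_one]
  have hV := fun (v : Subgroup.centralizer ((Q : Subgroup G) : Set G)) (hv : D.l v = 0) =>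
    mem_center_of_V bk i0 hdeg hfaith hnn hp3 hc hv
  have hodd : charDegree ((bk.Y (i0 : (ZMod p)ˣ ⧸ HT D θ) : IrrCharacter G) : G → ℂ) % 2 = 1 := by
    rw [hdeg]
    rcases hp.out.eq_two_or_odd with h1 | h1 <;> omega
  have hZ : ∀ z ∈ Subgroup.center G, ∀ k : ℕ, z ^ 2 ^ k = 1 → z = 1 := fun z hz k hk =>
    no_central_two hG hodd hfaith hz k hk
  have hZ1 : ∀ z ∈ Subgroup.center G, z ^ 2 = 1 → z = 1 := fun z hz hk => hZ z hz 1 (by rw [pow_one]; exact hk)
  obtain ⟨t, ht, hκ⟩ := exists_t D hp2 he hV hZ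
  obtain ⟨bk'⟩ := exists_Blk_triv bk.hM Q hQ D
  have hHT' : Nat.card (HT D (triv (Subgroup.centralizer ((Q : Subgroup G) : Set G)))) = 2 := by
    have h1 := card_rangeE D (triv (Subgroup.centralizer ((Q : Subgroup G) : Set G)))
    rw [inN_triv, Subgroup.index_top, mul_one, he] at h1
    exact h1.symm
  obtain ⟨S1, hS1, hS1'⟩ := princ_bound bk' hHT' hp7 ht hκ
  obtain ⟨a, S2, k, ha, hsa, hS2, hka, hk⟩ := theta_bound bk hin hθ hHT hp7 ht hκ _ hdeg hs
  have e1 := sum_T D ht hV hZ1 bk.ht hθ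
  have e2 := sum_T D ht hV hZ1 bk'.ht (rfl : ((triv (Subgroup.centralizer ((Q : Subgroup G) : Set G)) :
    IrrCharacter (Subgroup.centralizer ((Q : Subgroup G) : Set G))) :
    Subgroup.centralizer ((Q : Subgroup G) : Set G) → ℂ) 1 = 1)
  have hC0 : (Nat.card (Subgroup.centralizer ((Q : Subgroup G) : Set G)) : ℂ) ≠ 0 := by exact_mod_cast Nat.card_pos.ne'
  have e3 : (S1 : ℂ) = S2 := by
    rw [← hS1, ← hS2]
    exact mul_left_cancel₀ hC0 (e2.trans e1.symm)
  have e4 : S1 = S2 := by exact_mod_cast e3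
  have hk0 : k = 0 := by
    by_contra hne
    have h1 := hk (by omega)
    rw [← e4] at h1
    linarith
  rw [hk0, zero_mul, add_zero] at hka
  have hat := BRCore.eq_triv_of_deg hG hka
  have hdm := bk.hs1 a ha 1
  rw [hat, hsa] at hdm
  have hθt : θ = triv (Subgroup.centralizer ((Q : Subgroup G) : Set G)) := by
    apply eq_triv_of_dm (D := D) (i := ((1 : (ZMod p)ˣ) : ZMod p))
    rw [hdm]; norm_num
  refine ⟨hθt, fun v hv => ?_⟩
  have h1 := val_V bk i0 hdeg hfaith hnn hp3 hc hv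
  have h2 : (θ : Subgroup.centralizer ((Q : Subgroup G) : Set G) → ℂ) v = 1 := by rw [hθt]; rfl
  rw [h2, mul_one] at h1
  apply Subtype.ext
  apply hfaith
  rw [h1, one_eq, hdeg, Nat.cast_sub hp.out.two_le]
  norm_num

end

/-- transport of the data of the principal block -/
theorem exists_B0_D {M : Ideal AlgInt} (hM : IsPModular p M) (Q : Sylow p G) (hQ : Nat.card Q = p)
    (D : Loc p (Q : Subgroup G) (Subgroup.normalizer ((Q : Subgroup G) : Set G))
      (Subgroup.centralizer ((Q : Subgroup G) : Set G)))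
    [Fintype (Subgroup.centralizer ((Q : Subgroup G) : Set G))] : Nonempty (BRB0.B0 D) := by
  classical
  have hsq := DefOnePrin.not_sq Q hQ
  obtain ⟨bk⟩ := exists_Blk_triv hM Q hQ D
  have hHT : HT D (triv (Subgroup.centralizer ((Q : Subgroup G) : Set G))) = (κu D).range := by
    rw [HT, MonoidHom.range_eq_map, inN_triv]
  obtain ⟨-, hpC, -, -, -, -, hind, hcard, Y, s, hY, hs, hs1, hs2⟩ := bk
  revert hcard Y s
  generalize HT D (triv (Subgroup.centralizer ((Q : Subgroup G) : Set G))) = H at *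
  subst hHT
  intro hcard Y s hY hs hs1 hs2
  exact BRB0.exists_B0_aux D hM hQ hsq hpC hind Y s hcard hY hs hs1 (fun i q => by convert hs2 i q)

end Cfsg.Agent.Lib.H15Pa
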