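import Cfsg.Agent.Lib.H15Pj
import Cfsg.Agent.Lib.DblCover
import Cfsg.Agent.Lib.ClSL2Syl
import Cfsg.Agent.S4701

set_option autoImplicit false
set_option linter.all false

/-!
# Perfect groups with a faithful character of degree `p - 2`: identification
-/

namespace Cfsg.Agent.Lib.H15Pa

open Cfsg Cfsg.Agent.Lib.BlockRing Cfsg.Agent.Lib.BlockGA Cfsg.Agent.Lib.BlockIdem
open Cfsg.Agent.Lib.BlockSecond Cfsg.Agent.Lib.BlockNormP Cfsg.Agent.Lib.BlockThird
open Cfsg.Agent.Lib.DefOneLoc Cfsg.Agent.Lib.DefOneOrd Cfsg.Agent.Lib.CharBasic Cfsg.Agent.Lib.DefOneGram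
open Cfsg.Agent.Lib.DefOneBlk Cfsg.Agent.Lib.DefOne Cfsg.Agent.Lib.DefOneGen Cfsg.Agent.Lib.DefOneGalois
open Cfsg.Agent.Lib.H15RealP
open scoped ComplexConjugate
open ZMod (stdAddChar)

universe u

variable {G : Type u} [Group G] [Fintype G] {p : ℕ} [hp : Fact p.Prime]

section

variable (Q : Sylow p G) (hQ : Nat.card Q = p)
  {D : Loc p (Q : Subgroup G) (Subgroup.normalizer ((Q : Subgroup G) : Set G))
      (Subgroup.centralizer ((Q : Subgroup G) : Set G))}
  [Fintype (Subgroup.centralizer ((Q : Subgroup G) : Set G))] {M : Ideal AlgInt}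
  {θ : IrrCharacter (Subgroup.centralizer ((Q : Subgroup G) : Set G))} {B : Set (IrrCharacter G)}
  (bk : Blk D M θ B) (i0 : (ZMod p)ˣ) 
  (hdeg : charDegree ((bk.Y (i0 : (ZMod p)ˣ ⧸ HT D θ) : IrrCharacter G) : G → ℂ) = p - 2)
  (hfaith : ∀ g : G, ((bk.Y (i0 : (ZMod p)ˣ ⧸ HT D θ) : IrrCharacter G) : G → ℂ) g =
    ((bk.Y (i0 : (ZMod p)ˣ ⧸ HT D θ) : IrrCharacter G) : G → ℂ) 1 → g = 1) (hnn : ¬ (Q : Subgroup G).Normal) (hp7 : 7 ≤ p)
  (hG : commutator G = ⊤)

include hQ hdeg hfaith hnn hp7 hG in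
theorem card_eq : Nat.card G = (p - 1) * (p * (p - 2)) ∧ Subgroup.center G = ⊥ := by
  classical
  have hp2 : p ≠ 2 := by omega
  have hp3 : 3 < p := by omega
  obtain ⟨c, hc⟩ := ColTools.exists_counts_prime (bk.Y (i0 : (ZMod p)ˣ ⧸ HT D θ) : IrrCharacter G).2.isCharacter D.u (up D)
  obtain ⟨hs, he, hd, h0⟩ := local_num bk i0 hdeg hfaith hnn hp3 hc
  obtain ⟨hθ, hV⟩ := trivial_V Q hQ bk i0 hdeg hfaith hnn hp7 hG
  subst hθ
  have hCP : Subgroup.centralizer ((Q : Subgroup G) : Set G) ≤ (Q : Subgroup G) := by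
    intro c hc
    obtain ⟨x, v, h1, h2⟩ := D.fac ⟨c, hc⟩
    have h3 := hV v h2
    rw [h3, Subgroup.coe_one, mul_one] at h1
    change c = x at h1
    rw [h1]; exact x.2
  refine ⟨?_, ?_⟩
  · obtain ⟨B0⟩ := exists_B0_D bk.hM Q hQ D
    obtain ⟨χ, h⟩ := H15RealP.exists_cfg B0 (by omega) hQ hCP he ⟨Q, rfl⟩
    set ζ : IrrCharacter G := (bk.Y (i0 : (ZMod p)ˣ ⧸ HT D (triv _)) : IrrCharacter G) with hζ
    have hdm0 : dm D (ζ : G → ℂ) (triv _) (i0 : ZMod p) = -1 := by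
      rw [hζ, bk.hs2, if_pos rfl, hs]; norm_num
    have hcard := card_quot_eq bk (card_HT bk i0 hdeg hfaith hnn hp3 hc)
    obtain ⟨i1, hi1⟩ : ∃ i1 : (ZMod p)ˣ, dm D (ζ : G → ℂ) (triv _) (i1 : ZMod p) = 0 := by
      haveI : Nontrivial ((ZMod p)ˣ ⧸ HT D (triv (Subgroup.centralizer ((Q : Subgroup G) : Set G)))) :=
        Finite.one_lt_card_iff_nontrivial.1 (by omega)
      obtain ⟨q', hq2⟩ := exists_ne (i0 : (ZMod p)ˣ ⧸ HT D (triv (Subgroup.centralizer ((Q : Subgroup G) : Set G))))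
      obtain ⟨i, rfl⟩ := QuotientGroup.mk_surjective q'
      exact ⟨i, by rw [hζ, bk.hs2, if_neg hq2]⟩
    have hnX : ζ ∉ B0.X := by
      intro hX
      have h1 := B0.dmX ζ hX i1
      have h2 := B0.dmX ζ hX i0
      rw [← h1, hi1, hdm0] at h2
      norm_num at h2
    obtain ⟨q, hq⟩ : ∃ q, ζ = B0.Y q := by
      by_contra hcon
      push Not at hcon
      have h2 := B0.dmO ζ hnX hcon i0
      rw [hdm0] at h2
      norm_num at h2
    have hsB : B0.s = -1 := by
      have h2 := B0.dmY q i0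
      rw [← hq, hdm0] at h2
      split_ifs at h2
      · exact_mod_cast h2.symm
      · norm_num at h2
    have hrel := h.rel q (g := 1) not_dvd_one
    rw [hsB, ← hq, ← BlockDeg.charDegree_cast_irr, hdeg, Nat.cast_sub hp.out.two_le,
      ← BlockDeg.charDegree_cast_irr χ] at hrel
    have hrel' : -((p : ℤ) - 2) = 1 + B0.δ χ * charDegree (χ : G → ℂ) := by
      have : ((-((p : ℤ) - 2) : ℤ) : ℂ) = ((1 + B0.δ χ * charDegree (χ : G → ℂ) : ℤ) : ℂ) := by
        push_cast; push_cast at hrel; linear_combination hrel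
      exact_mod_cast this
    have hδ : B0.δ χ = -1 := by
      rcases B0.δ_pm χ h.mem with h1 | h1
      · exfalso
        rw [h1] at hrel'
        omega
      · exact h1
    have hχdeg : charDegree (χ : G → ℂ) = p - 1 := by
      rw [hδ] at hrel'
      omega
    have hf : ∀ g : G, (χ : G → ℂ) g = (χ : G → ℂ) 1 → g = 1 := by
      intro g hg
      by_cases hpg : p ∣ orderOf g
      · exfalso
        rw [h.val_sing hpg, hδ, h.one_eq hχdeg] at hg
        have h1 : (p : ℂ) = ((0 : ℕ) : ℂ) := by push_cast at hg ⊢; linear_combination -hg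
        have h2 : p = 0 := by exact_mod_cast h1
        omega
      · apply hfaith
        change (ζ : G → ℂ) g = (ζ : G → ℂ) 1
        rw [hq, h.Y_reg hδ q hpg, h.Y_reg hδ q not_dvd_one, hg]
    exact (h.count_seven hδ hχdeg hf hp7).2
  · rw [eq_bot_iff]
    intro z hz
    rw [Subgroup.mem_bot]
    have hzC : z ∈ Subgroup.centralizer ((Q : Subgroup G) : Set G) := Subgroup.center_le_centralizer _ hz
    obtain ⟨n, hn⟩ := exists_neg D he
    have h1 := conj_inv D hn (hCP hzC)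
    rw [Subgroup.mem_center_iff] at hz
    rw [hz, mul_inv_cancel_right] at h1
    have h2 : z ^ 2 = 1 := by
      rw [pow_two]
      exact mul_eq_one_iff_eq_inv.2 h1
    have h3 : z ^ p = 1 := by
      have h4 := pow_card_eq_one' (x := (⟨z, hCP hzC⟩ : (Q : Subgroup G)))
      have h5 : Nat.card (Q : Subgroup G) = p := hQ
      rw [h5] at h4
      exact congrArg Subtype.val h4
    have h4 : orderOf z ∣ Nat.gcd 2 p := Nat.dvd_gcd (orderOf_dvd_of_pow_eq_one h2) (orderOf_dvd_of_pow_eq_one h3)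
    have h5 : Nat.gcd 2 p = 1 := (Nat.coprime_primes Nat.prime_two hp.out).2 (Ne.symm hp2)
    rw [h5, Nat.dvd_one] at h4
    exact orderOf_eq_one_iff.1 h4

include hQ hdeg hfaith hnn hp7 hG in
theorem ident : ∃ (a : ℕ) (F : Type) (_ : Field F) (_ : Fintype F), p = 2 ^ a + 1 ∧ Fintype.card F = 2 ^ a ∧
    Nonempty (G ≃* Matrix.SpecialLinearGroup (Fin 2) F) := by
  obtain ⟨hcard, hZ⟩ := card_eq Q hQ bk i0 hdeg hfaith hnn hp7 hG
  obtain ⟨m, rfl⟩ : ∃ m, p = m + 2 := ⟨p - 2, by omega⟩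
  have e1 : m + 2 - 1 = m + 1 := rfl
  have e2 : m + 2 - 2 = m := rfl
  rw [e1, e2] at hcard
  have hlt : Nat.card G < (m + 2) ^ 3 := by
    rw [hcard]
    nlinarith
  rcases Cfsg.Agent.S4701.result hG (m + 2) (by rw [hcard]; exact ⟨(m + 1) * m, by ring⟩) hlt Q hnn (by
    intro N hN h2
    have h3 := DblCover.central_of_card_two hN h2
    rw [hZ] at h3
    rw [le_bot_iff.1 h3, Subgroup.card_bot] at h2
    omega) with ⟨F, hF1, hF2, hF, -, ⟨e⟩⟩ | ⟨a, F, hF1, hF2, hF, hpa, -, ⟨e⟩⟩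
  · exfalso
    have hodd : Odd (Fintype.card F) := by
      rw [hF]
      rcases hp.out.eq_two_or_odd' with h | h
      · omega
      · exact h
    have h1 := ClSL2Syl.card_PSL2 (F := F) hodd
    rw [← Nat.card_congr e.toEquiv, hcard, hF] at h1
    have h2 : (m + 2) ^ 2 - 1 = (m + 1) * (m + 3) := by
      have : (m + 2) ^ 2 = (m + 1) * (m + 3) + 1 := by ring
      omega
    rw [h2] at h1
    have h3 : (m + 1) * (m + 2) * (2 * m) = (m + 1) * (m + 2) * (m + 3) := by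
      calc (m + 1) * (m + 2) * (2 * m) = 2 * ((m + 1) * ((m + 2) * m)) := by ring
        _ = (m + 2) * ((m + 1) * (m + 3)) := h1
        _ = _ := by ring
    have h4 := Nat.eq_of_mul_eq_mul_left (by positivity) h3
    omega
  · exact ⟨a, F, hF1, hF2, hpa, hF, ⟨e⟩⟩

end

end Cfsg.Agent.Lib.H15Pa
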