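import Cfsg.Agent.Lib.H15Pk
import Cfsg.Agent.Lib.Clifford

set_option autoImplicit false
set_option linter.all false

/-!
# Reduction to perfect groups
-/

namespace Cfsg.Agent.Lib.H15Pa

open Cfsg Cfsg.Agent.Lib.BlockRing Cfsg.Agent.Lib.BlockGA Cfsg.Agent.Lib.BlockIdem
open Cfsg.Agent.Lib.BlockSecond Cfsg.Agent.Lib.BlockNormP Cfsg.Agent.Lib.BlockThird
open Cfsg.Agent.Lib.DefOneLoc Cfsg.Agent.Lib.DefOneOrd Cfsg.Agent.Lib.CharBasic Cfsg.Agent.Lib.DefOneGram
open Cfsg.Agent.Lib.DefOneBlk Cfsg.Agent.Lib.DefOne Cfsg.Agent.Lib.DefOneGen Cfsg.Agent.Lib.DefOneGalois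
open Cfsg.Agent.Lib.Clifford
open scoped ComplexConjugate
open ZMod (stdAddChar)

universe u

variable {G : Type u} [Group G] [Fintype G]

/-- restriction to a normal subgroup of a character with a one-dimensional space of fixed points -/
theorem res_irr {K Q : Subgroup G} [hKn : K.Normal] (hQK : Q ≤ K)
    (hNK : Subgroup.normalizer (Q : Set G) ⊔ K = ⊤) [Fintype Q] (ζ : IrrCharacter G)
    (hfix : ∑ y : Q, (ζ : G → ℂ) y = Fintype.card Q) : IsIrrCharacter K (fun k : K => (ζ : G → ℂ) k) := by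
  classical
  letI : Fintype K := Fintype.ofFinite K
  have hQ0 : (Fintype.card Q : ℂ) ≠ 0 := by exact_mod_cast Fintype.card_ne_zero
  set W : (K → ℂ) → ℂ := fun φ => ∑ y : Q, φ ⟨y, hQK y.2⟩ with hW
  have hζK : IsCharacter K (fun k : K => (ζ : G → ℂ) k) := ζ.2.isCharacter.restrict K
  choose n hn using fun ψ : IrrCharacter K => hζK.classInner_nat ψ.2.isCharacter
  have hw : ∀ ψ : IrrCharacter K, ∃ m : ℕ, W (ψ : K → ℂ) = Fintype.card Q * m := by
    intro ψ
    have h1 : IsCharacter Q (fun y : Q => (ψ : K → ℂ) (Subgroup.inclusion hQK y)) :=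
      ψ.2.isCharacter.comp (Subgroup.inclusion hQK)
    obtain ⟨m, hm⟩ := h1.classInner_nat (isIrrCharacter_fun_one (G := Q)).isCharacter
    refine ⟨m, ?_⟩
    rw [classInner_def, Nat.card_eq_fintype_card] at hm
    rw [← hm, mul_inv_cancel_left₀ hQ0]
    refine Finset.sum_congr rfl fun y _ => ?_
    rw [map_one, mul_one]
    rfl
  choose w hw using hw
  have hex := hζK.isClassFunction.expansion
  have h1 : (∑ ψ : IrrCharacter K, n ψ * w ψ) = 1 := by
    have h2 : W (fun k : K => (ζ : G → ℂ) k) = ∑ ψ : IrrCharacter K, (n ψ : ℂ) * W (ψ : K → ℂ) := by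
      rw [hW]
      simp only
      have h3 : ∀ y : Q, (ζ : G → ℂ) y = ∑ ψ : IrrCharacter K, (n ψ : ℂ) * (ψ : K → ℂ) ⟨y, hQK y.2⟩ := by
        intro y
        have h4 := congrFun hex ⟨y, hQK y.2⟩
        rw [Finset.sum_apply] at h4
        rw [← Finset.sum_congr rfl fun ψ _ => by rw [← hn ψ]]
        exact h4
      rw [Finset.sum_congr rfl fun y _ => h3 y, Finset.sum_comm]
      refine Finset.sum_congr rfl fun ψ _ => ?_
      rw [Finset.mul_sum]
    have h5 : W (fun k : K => (ζ : G → ℂ) k) = Fintype.card Q := hfix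
    rw [h5, Finset.sum_congr rfl fun ψ _ => by rw [hw ψ]] at h2
    have h6 : (Fintype.card Q : ℂ) * 1 = (Fintype.card Q : ℂ) * ((∑ ψ : IrrCharacter K, n ψ * w ψ : ℕ) : ℂ) := by
      rw [mul_one]
      refine h2.trans ?_
      push_cast
      rw [Finset.mul_sum]
      refine Finset.sum_congr rfl fun ψ _ => ?_
      ring
    have h7 := mul_left_cancel₀ hQ0 h6
    exact_mod_cast h7.symm
  obtain ⟨ψ0, hψ0⟩ : ∃ ψ0, n ψ0 * w ψ0 ≠ 0 := by
    by_contra hcon
    push Not at hcon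
    rw [Finset.sum_congr rfl fun ψ _ => hcon ψ, Finset.sum_const_zero] at h1
    exact zero_ne_one h1
  rw [← Finset.add_sum_erase _ _ (Finset.mem_univ ψ0)] at h1
  have h0 : ∀ ψ, ψ ≠ ψ0 → n ψ * w ψ = 0 := by
    intro ψ hψ
    have h2 : n ψ * w ψ ≤ ∑ ψ ∈ Finset.univ.erase ψ0, n ψ * w ψ :=
      Finset.single_le_sum (f := fun ψ => n ψ * w ψ) (fun _ _ => Nat.zero_le _)
        (Finset.mem_erase.2 ⟨hψ, Finset.mem_univ _⟩)
    omega
  have h01 : n ψ0 * w ψ0 = 1 := by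
    have := Nat.pos_of_ne_zero hψ0
    omega
  have hn0 : n ψ0 = 1 := Nat.eq_one_of_mul_eq_one_right h01
  have hw0 : w ψ0 = 1 := Nat.eq_one_of_mul_eq_one_left h01
  have hcls : ∀ ψ : IrrCharacter K, n ψ ≠ 0 → ψ = ψ0 := by
    intro ψ hψ
    by_contra hne
    obtain ⟨g, hg⟩ := exists_cj_eq ζ.2 ψ0.2 ψ.2 (by rw [hn, hn0]; norm_num) (by rw [hn]; exact_mod_cast hψ)
    have hgm : g ∈ Subgroup.normalizer (Q : Set G) ⊔ K := by rw [hNK]; exact Subgroup.mem_top g
    obtain ⟨m, hm, k, hk, rfl⟩ := Subgroup.mem_sup_of_normal_right.1 hgm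
    have h2 : (ψ : K → ℂ) = cj K m (ψ0 : K → ℂ) := by
      rw [hg, ← cj_cj]
      exact cj_of_mem (isClassFunction_cj ψ0.2.isClassFunction m) hk
    have h3 : W (ψ : K → ℂ) = W (ψ0 : K → ℂ) := by
      rw [h2, hW]
      simp only
      have hmem : ∀ y : Q, m * (y : G) * m⁻¹ ∈ Q := fun y => (Subgroup.mem_normalizer_iff.1 hm y).1 y.2
      refine Fintype.sum_bijective (fun y : Q => (⟨m * y * m⁻¹, hmem y⟩ : Q)) ?_ _ _ (fun y => rfl)
      rw [Finite.injective_iff_bijective.symm]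
      intro y y' hyy
      have h4 : m * (y : G) * m⁻¹ = m * y' * m⁻¹ := congrArg Subtype.val hyy
      exact Subtype.ext (mul_left_cancel (mul_right_cancel h4))
    rw [hw, hw, hw0] at h3
    have h4 : w ψ = 1 := by
      have := mul_left_cancel₀ hQ0 h3
      exact_mod_cast this
    have h5 := h0 ψ hne
    rw [h4, mul_one] at h5
    exact hψ h5
  have h2 : (fun k : K => (ζ : G → ℂ) k) = (ψ0 : K → ℂ) := by
    rw [hex, Finset.sum_eq_single ψ0]
    · rw [hn, hn0, Nat.cast_one, one_smul]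
    · intro ψ _ hψ
      by_cases h3 : n ψ = 0
      · rw [hn, h3, Nat.cast_zero, zero_smul]
      · exact absurd (hcls ψ h3) hψ
    · intro h; exact absurd (Finset.mem_univ _) h
  rw [h2]
  exact ψ0.2

end Cfsg.Agent.Lib.H15Pa
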