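import Cfsg.Agent.Lib.H15Pl

set_option autoImplicit false
set_option linter.all false

/-!
# Faithful characters of degree `p - 2`
-/

namespace Cfsg.Agent.Lib.H15Pa

open Cfsg Cfsg.Agent.Lib.BlockRing Cfsg.Agent.Lib.BlockGA Cfsg.Agent.Lib.BlockIdem
open Cfsg.Agent.Lib.BlockSecond Cfsg.Agent.Lib.BlockNormP Cfsg.Agent.Lib.BlockThird
open Cfsg.Agent.Lib.DefOneLoc Cfsg.Agent.Lib.DefOneOrd Cfsg.Agent.Lib.CharBasic Cfsg.Agent.Lib.DefOneGram
open Cfsg.Agent.Lib.DefOneBlk Cfsg.Agent.Lib.DefOne Cfsg.Agent.Lib.DefOneGen Cfsg.Agent.Lib.DefOneGalois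
open Cfsg.Agent.Lib.Clifford
open scoped ComplexConjugate
open ZMod (stdAddChar)

universe u

variable {G : Type u} [Group G] [Fintype G] {p : ℕ} [hp : Fact p.Prime]

theorem not_normal_of {P Q : Sylow p G} (hnn : ¬ (P : Subgroup G).Normal) : ¬ (Q : Subgroup G).Normal := by
  intro h
  have := Sylow.unique_of_normal Q h
  rw [Subsingleton.elim P Q] at hnn
  exact hnn h

theorem setup (P : Sylow p G) (hP : Nat.card P = p) (hnn : ¬ (P : Subgroup G).Normal) (ζ : IrrCharacter G)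
    (hdeg : charDegree (ζ : G → ℂ) = p - 2) (hfaith : ∀ g : G, (ζ : G → ℂ) g = (ζ : G → ℂ) 1 → g = 1) (hp3 : 3 < p) :
    ∃ (Q : Sylow p G)
      (D : Loc p (Q : Subgroup G) (Subgroup.normalizer ((Q : Subgroup G) : Set G))
      (Subgroup.centralizer ((Q : Subgroup G) : Set G)))
      (hC : Fintype (Subgroup.centralizer ((Q : Subgroup G) : Set G))) (M : Ideal AlgInt)
      (θ : IrrCharacter (Subgroup.centralizer ((Q : Subgroup G) : Set G))) (B : Set (IrrCharacter G)) (bk : Blk D M θ B)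
      (i0 : (ZMod p)ˣ), Nat.card Q = p ∧ ζ = bk.Y (i0 : (ZMod p)ˣ ⧸ HT D θ) := by
  classical
  have hdiv : p ∣ Nat.card G := by
    have h1 := Subgroup.card_subgroup_dvd_card (P : Subgroup G)
    have h2 : Nat.card (P : Subgroup G) = p := hP
    rwa [h2] at h1
  have hχ : ¬ p ∣ charDegree (ζ : G → ℂ) := by
    rw [hdeg]
    intro h
    have := Nat.le_of_dvd (by omega) h
    omega
  obtain ⟨Q, D, M, θ, B, hQ, hmem, ⟨bk⟩⟩ := exists_Blk (DefOnePrin.not_sq P hP) hdiv ζ hχ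
  obtain ⟨c, hc⟩ := ColTools.exists_counts_prime ζ.2.isCharacter D.u (up D)
  obtain ⟨q, hq⟩ := mem_range bk hmem hdeg hfaith hp3 hc
  obtain ⟨i0, rfl⟩ := QuotientGroup.mk_surjective q
  exact ⟨Q, D, _, M, θ, B, bk, i0, hQ, hq⟩

theorem perfect_main (hG : commutator G = ⊤) (P : Sylow p G) (hP : Nat.card P = p) (hnn : ¬ (P : Subgroup G).Normal)
    (ζ : IrrCharacter G)
    (hdeg : charDegree (ζ : G → ℂ) = p - 2) (hfaith : ∀ g : G, (ζ : G → ℂ) g = (ζ : G → ℂ) 1 → g = 1) (hp7 : 7 ≤ p) :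
    (∃ (a : ℕ) (F : Type) (_ : Field F) (_ : Fintype F), p = 2 ^ a + 1 ∧ Fintype.card F = 2 ^ a ∧
    Nonempty (G ≃* Matrix.SpecialLinearGroup (Fin 2) F)) ∧ Subgroup.center G = ⊥ := by
  obtain ⟨Q, D, hC, M, θ, B, bk, i0, hQ, rfl⟩ := setup P hP hnn ζ hdeg hfaith (by omega)
  have hnQ : ¬ (Q : Subgroup G).Normal := not_normal_of hnn
  exact ⟨ident Q hQ bk i0 hdeg hfaith hnQ hp7 hG, (card_eq Q hQ bk i0 hdeg hfaith hnQ hp7 hG).2⟩

theorem local_pack (P : Sylow p G) (hP : Nat.card P = p) (hnn : ¬ (P : Subgroup G).Normal) (ζ : IrrCharacter G)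
    (hdeg : charDegree (ζ : G → ℂ) = p - 2) (hfaith : ∀ g : G, (ζ : G → ℂ) g = (ζ : G → ℂ) 1 → g = 1) (hp3 : 3 < p) :
    ∃ Q : Sylow p G, Nat.card Q = p ∧ ¬ (Q : Subgroup G).Normal ∧
      (∃ n : G, ∀ x ∈ (Q : Subgroup G), n * x * n⁻¹ = x⁻¹) ∧
      (∀ n ∈ Subgroup.normalizer ((Q : Subgroup G) : Set G), n ∈ Subgroup.centralizer ((Q : Subgroup G) : Set G) ∨
        ∀ x ∈ (Q : Subgroup G), n * x * n⁻¹ = x⁻¹) ∧
      (∀ c ∈ Subgroup.centralizer ((Q : Subgroup G) : Set G), ∃ x ∈ (Q : Subgroup G), ∃ v ∈ Subgroup.center G, c = x * v) ∧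
      (∀ [Fintype (Q : Subgroup G)], ∑ y : (Q : Subgroup G), (ζ : G → ℂ) y = Fintype.card (Q : Subgroup G)) := by
  obtain ⟨Q, D, hC, M, θ, B, bk, i0, hQ, rfl⟩ := setup P hP hnn ζ hdeg hfaith (by omega)
  have hnQ : ¬ (Q : Subgroup G).Normal := not_normal_of hnn
  obtain ⟨c, hc⟩ := ColTools.exists_counts_prime (bk.Y (i0 : (ZMod p)ˣ ⧸ HT D θ) : IrrCharacter G).2.isCharacter D.u (up D)
  obtain ⟨hs, he, hd, h0⟩ := local_num bk i0 hdeg hfaith hnQ hp3 hc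
  have hV := fun (v : Subgroup.centralizer ((Q : Subgroup G) : Set G)) (hv : D.l v = 0) =>
    mem_center_of_V bk i0 hdeg hfaith hnQ hp3 hc hv
  refine ⟨Q, hQ, hnQ, ?_, ?_, ?_, ?_⟩
  · obtain ⟨n, hn⟩ := exists_neg D he
    exact ⟨n, fun x hx => conj_inv D hn hx⟩
  · intro n hn
    rcases kappa_pm D he ⟨n, hn⟩ with h | h
    · left; exact (D.κ_eq ⟨n, hn⟩).1 h
    · right; exact fun x hx => conj_inv D h hx
  · intro c hc
    obtain ⟨x, v, h1, h2⟩ := D.fac ⟨c, hc⟩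
    exact ⟨x, x.2, v, hV v h2, h1⟩
  · intro inst
    rw [sum_P_eq D]
    have h1 := ColTools.dft (fun j => (c j : ℂ)) (0 : ZMod p)
    have h2 : ∑ k : ZMod p, (∑ i, (c i : ℂ) * stdAddChar (i * k)) * stdAddChar (-((0 : ZMod p) * k)) =
        ∑ k : ZMod p, ((bk.Y (i0 : (ZMod p)ˣ ⧸ HT D θ) : IrrCharacter G) : G → ℂ) (D.u ^ k.val) := by
      refine Finset.sum_congr rfl fun k _ => ?_
      rw [zero_mul, neg_zero, AddChar.map_zero_eq_one, mul_one, hc, ZMod.natCast_zmod_val]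
    have h3 : (Fintype.card (Q : Subgroup G) : ℂ) = p := by
      rw [← Nat.card_eq_fintype_card]
      have h4 : Nat.card (Q : Subgroup G) = p := hQ
      rw [h4]
    rw [← h2, h1, h0, Nat.cast_one, mul_one, h3]

end Cfsg.Agent.Lib.H15Pa
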