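import Cfsg.Agent.Lib.H15Pm

set_option autoImplicit false
set_option linter.all false

/-!
# Faithful characters of degree `p - 2`
-/

namespace Cfsg.Agent.Lib.H15Pa

open Cfsg Cfsg.Agent.Lib.CharBasic
open scoped commutatorElement

universe u

variable {G : Type u} [Group G] [Fintype G] {p : ℕ} [hp : Fact p.Prime]

/-- inner direct products -/
theorem prod_equiv {K Z : Subgroup G} (hZ : Z ≤ Subgroup.center G) (hinf : K ⊓ Z = ⊥) (hsup : K ⊔ Z = ⊤) :
    Nonempty (K × Z ≃* G) := by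
  have hc : ∀ (k : K) (z : Z), Commute (K.subtype k) (Z.subtype z) := by
    intro k z
    exact Subgroup.mem_center_iff.1 (hZ z.2) k
  refine ⟨MulEquiv.ofBijective (MonoidHom.noncommCoprod K.subtype Z.subtype hc) ⟨?_, ?_⟩⟩
  · rw [injective_iff_map_eq_one]
    rintro ⟨k, z⟩ h
    have h1 : (k : G) * z = 1 := h
    have h2 : (k : G) = (z : G)⁻¹ := mul_eq_one_iff_eq_inv.1 h1
    have h3 : (k : G) ∈ K ⊓ Z := ⟨k.2, by rw [h2]; exact Z.inv_mem z.2⟩
    rw [hinf, Subgroup.mem_bot] at h3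
    have h4 : (z : G) = 1 := by rw [h3, one_mul] at h1; exact h1
    exact Prod.ext (Subtype.ext h3) (Subtype.ext h4)
  · intro g
    have hZn : Z.Normal := ⟨fun z hz g => by
      rw [Subgroup.mem_center_iff.1 (hZ hz) g, mul_inv_cancel_right]; exact hz⟩
    have h1 : g ∈ K ⊔ Z := by rw [hsup]; exact Subgroup.mem_top g
    obtain ⟨k, hk, z, hz, rfl⟩ := Subgroup.mem_sup_of_normal_right.1 h1
    exact ⟨(⟨k, hk⟩, ⟨z, hz⟩), rfl⟩

theorem conj_sylow {P Q : Sylow p G} : ∃ g : G, ∀ x, x ∈ (P : Subgroup G) → g * x * g⁻¹ ∈ (Q : Subgroup G) := by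
  obtain ⟨g, hg⟩ := MulAction.exists_smul_eq G P Q
  refine ⟨g, fun x hx => ?_⟩
  rw [← hg]
  exact Subgroup.smul_mem_pointwise_smul x (MulAut.conj g) _ hx

theorem main (hp7 : 7 ≤ p) (P : Sylow p G) (hP : Nat.card P = p) (hnn : ¬ (P : Subgroup G).Normal) (ζ : IrrCharacter G)
    (hdeg : charDegree (ζ : G → ℂ) = p - 2) (hfaith : ∀ g : G, (ζ : G → ℂ) g = (ζ : G → ℂ) 1 → g = 1) :
    ∃ (a : ℕ) (F : Type) (_ : Field F) (_ : Fintype F), p = 2 ^ a + 1 ∧ Fintype.card F = 2 ^ a ∧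
    Nonempty (G ≃* Matrix.SpecialLinearGroup (Fin 2) F × Subgroup.center G) := by
  classical
  have hp2 : p ≠ 2 := by omega
  have hp3 : 3 < p := by omega
  obtain ⟨Q, hQ, hnQ, -, hN, hC, hfix⟩ := local_pack P hP hnn ζ hdeg hfaith hp3
  set K : Subgroup G := Subgroup.normalClosure ((Q : Subgroup G) : Set G) with hK
  haveI hKn : K.Normal := Subgroup.normalClosure_normal
  have hQK : (Q : Subgroup G) ≤ K := Subgroup.subset_normalClosure
  have hNK : Subgroup.normalizer ((Q : Subgroup G) : Set G) ⊔ K = ⊤ := Sylow.normalizer_sup_eq_top' Q hQK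
  have hirr := res_irr hQK hNK ζ hfix
  set ζK : IrrCharacter K := ⟨fun k : K => (ζ : G → ℂ) k, hirr⟩ with hζK
  set QK : Sylow p K := Q.subtype hQK with hQKdef
  have hQKc : Nat.card QK = p := by
    have h1 : Nat.card (QK : Subgroup K) = p := by
      rw [hQKdef, Sylow.coe_subtype]
      rw [Nat.card_congr (Subgroup.subgroupOfEquivOfLe hQK).toEquiv]
      exact hQ
    exact h1
  have hnQK : ¬ (QK : Subgroup K).Normal := by
    intro h
    apply hnQ
    haveI := Sylow.characteristic_of_normal QK h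
    have h1 : ((QK : Subgroup K).map K.subtype).Normal := ConjAct.normal_of_characteristic_of_normal
    have h2 : (QK : Subgroup K).map K.subtype = (Q : Subgroup G) := by
      rw [hQKdef, Sylow.coe_subtype, Subgroup.subgroupOf_map_subtype, inf_of_le_left hQK]
    rwa [h2] at h1
  have hdegK : charDegree (ζK : K → ℂ) = p - 2 := by
    have h1 : ((charDegree (ζK : K → ℂ) : ℕ) : ℂ) = ((charDegree (ζ : G → ℂ) : ℕ) : ℂ) := by
      rw [← one_eq, ← one_eq]; rfl
    rw [← hdeg]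
    exact_mod_cast h1
  have hfaithK : ∀ g : K, (ζK : K → ℂ) g = (ζK : K → ℂ) 1 → g = 1 := by
    intro g hg
    exact Subtype.ext (hfaith g hg)
  obtain ⟨Q', hQ', hnQ', ⟨n', hn'⟩, -, -, -⟩ := local_pack QK hQKc hnQK ζK hdegK hfaithK hp3
  -- `K` is perfect
  have hperf : commutator K = ⊤ := by
    have h1 : ∀ x ∈ (Q' : Subgroup K), x ∈ commutator K := by
      intro x hx
      have h2 : x ^ 2 ∈ commutator K := by
        have h3 : ⁅n', x⁆ ∈ commutator K := Subgroup.commutator_mem_commutator (Subgroup.mem_top _) (Subgroup.mem_top _)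
        rw [commutatorElement_def, hn' x hx] at h3
        have h4 := (commutator K).inv_mem h3
        have h5 : (x⁻¹ * x⁻¹)⁻¹ = x ^ 2 := by rw [mul_inv_rev, inv_inv, pow_two]
        rwa [h5] at h4
      have h3 : x ^ p = 1 := by
        have h4 := pow_card_eq_one' (x := (⟨x, hx⟩ : (Q' : Subgroup K)))
        have h5 : Nat.card (Q' : Subgroup K) = p := hQ'
        rw [h5] at h4
        exact congrArg Subtype.val h4
      have hodd : p % 2 = 1 := by
        rcases hp.out.eq_two_or_odd with h1 | h1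
        · exact absurd h1 hp2
        · exact h1
      have h4 : x = (x ^ 2) ^ ((p + 1) / 2) := by
        rw [← pow_mul]
        have h5 : 2 * ((p + 1) / 2) = p + 1 := by omega
        rw [h5, pow_succ, h3, one_mul]
      rw [h4]
      exact Subgroup.pow_mem _ h2 _
    have h2 : (Q : Subgroup G) ≤ (commutator K).map K.subtype := by
      intro x hx
      obtain ⟨g, hg⟩ := conj_sylow (P := QK) (Q := Q')
      have h3 : (⟨x, hQK hx⟩ : K) ∈ (QK : Subgroup K) := hx
      have h4 := h1 _ (hg _ h3)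
      have h5 := (inferInstance : (commutator K).Normal).conj_mem _ h4 g⁻¹
      have h6 : g⁻¹ * (g * (⟨x, hQK hx⟩ : K) * g⁻¹) * g⁻¹⁻¹ = ⟨x, hQK hx⟩ := by group
      rw [h6] at h5
      exact ⟨_, h5, rfl⟩
    have h3 : ((commutator K).map K.subtype).Normal := ConjAct.normal_of_characteristic_of_normal
    have h4 : K ≤ (commutator K).map K.subtype := Subgroup.normalClosure_le_normal h2
    rw [eq_top_iff]
    intro k _
    obtain ⟨y, hy, hyk⟩ := h4 k.2
    have : y = k := Subtype.ext hyk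
    rwa [this] at hy
  obtain ⟨⟨a, F, hF1, hF2, hpa, hF, ⟨e⟩⟩, hZK⟩ := perfect_main hperf QK hQKc hnQK ζK hdegK hfaithK hp7
  refine ⟨a, F, hF1, hF2, hpa, hF, ?_⟩
  -- an element of `K` inverting `Q`
  obtain ⟨n0, hn0⟩ : ∃ n0 ∈ K, ∀ x ∈ (Q : Subgroup G), n0 * x * n0⁻¹ = x⁻¹ := by
    obtain ⟨g, hg⟩ := conj_sylow (P := QK) (Q := Q')
    refine ⟨g⁻¹ * n' * g, K.mul_mem (K.mul_mem (K.inv_mem g.2) n'.2) g.2, fun x hx => ?_⟩
    have h3 : (⟨x, hQK hx⟩ : K) ∈ (QK : Subgroup K) := hx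
    have h4 := hn' _ (hg _ h3)
    have h5 : n' * (g * (⟨x, hQK hx⟩ : K) * g⁻¹) * n'⁻¹ = g * (⟨x, hQK hx⟩ : K)⁻¹ * g⁻¹ := by
      rw [h4]; group
    have h6 := congrArg Subtype.val h5
    push_cast at h6
    calc (g : G)⁻¹ * n' * g * x * ((g : G)⁻¹ * n' * g)⁻¹ = (g : G)⁻¹ * (n' * (g * x * (g : G)⁻¹) * (n' : G)⁻¹) * g := by group
      _ = (g : G)⁻¹ * (g * x⁻¹ * (g : G)⁻¹) * g := by rw [h6]
      _ = x⁻¹ := by group
  obtain ⟨hn0K, hn0⟩ := hn0
  have hCK : Subgroup.centralizer ((Q : Subgroup G) : Set G) ≤ K ⊔ Subgroup.center G := by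
    intro c hc
    obtain ⟨x, hx, v, hv, rfl⟩ := hC c hc
    exact Subgroup.mul_mem_sup (hQK hx) hv
  have hNle : Subgroup.normalizer ((Q : Subgroup G) : Set G) ≤ K ⊔ Subgroup.center G := by
    intro n hn
    rcases hN n hn with h | h
    · exact hCK h
    · have h1 : n * n0 ∈ Subgroup.centralizer ((Q : Subgroup G) : Set G) := by
        rw [Subgroup.mem_centralizer_iff]
        intro x hx
        have h2 := hn0 x hx
        have h3 := h x⁻¹ ((Q : Subgroup G).inv_mem hx)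
        rw [inv_inv] at h3
        have h4 : n * n0 * x * (n * n0)⁻¹ = x := by
          calc n * n0 * x * (n * n0)⁻¹ = n * (n0 * x * n0⁻¹) * n⁻¹ := by group
            _ = x := by rw [h2, h3]
        exact (mul_inv_eq_iff_eq_mul.1 h4).symm
      have h2 := (K ⊔ Subgroup.center G).mul_mem (hCK h1) (Subgroup.mem_sup_left (K.inv_mem hn0K))
      rwa [mul_inv_cancel_right] at h2
  have hsup : K ⊔ Subgroup.center G = ⊤ := by
    rw [eq_top_iff, ← hNK]
    exact sup_le hNle le_sup_left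
  have hinf : K ⊓ Subgroup.center G = ⊥ := by
    rw [eq_bot_iff]
    rintro z ⟨hzK, hz⟩
    have h1 : (⟨z, hzK⟩ : K) ∈ Subgroup.center K := by
      rw [Subgroup.mem_center_iff]
      intro g
      exact Subtype.ext (Subgroup.mem_center_iff.1 hz g)
    rw [hZK, Subgroup.mem_bot] at h1
    exact congrArg Subtype.val h1
  obtain ⟨E⟩ := prod_equiv le_rfl hinf hsup
  exact ⟨E.symm.trans (MulEquiv.prodCongr e (MulEquiv.refl _))⟩

end Cfsg.Agent.Lib.H15Pa
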