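import Cfsg.Agent.Lib.H15SC0
import Cfsg.Agent.Lib.H15SA
import Cfsg.Agent.Lib.H15SB0

set_option autoImplicit false

namespace Cfsg.Agent.Lib.H15SC

open Subgroup Cfsg.Agent.Lib.H15S

variable {G : Type*} [Group G] [Finite G]

/-- piece C -/
theorem C_same (h : HK G) (h27 : ¬ 27 ∣ Nat.card G) {k : G} (hk : orderOf k = 3)
    {U : Subgroup G} (hU : KMax k U) {T : Subgroup G} (hT1 : T ≠ ⊥) (hTU : T ≤ U)
    (hle : normalizer (U : Set G) ≤ normalizer (T : Set G))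
    (hc : Nat.card (normalizer (U : Set G)) = 6 * Nat.card U ∨ ¬ IsPGroup 2 U) :
    normalizer (T : Set G) = normalizer (U : Set G) :=
  C_of hU hT1 hTU hle hc (fun _ hkH h9 => Cfsg.Agent.Lib.H15SA.A_struct h hk hkH h9)
    (fun _ hT hT1 => Cfsg.Agent.Lib.H15SB0.B0_nine h h27 hk hT hT1)

end Cfsg.Agent.Lib.H15SC
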