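import Mathlib
import Cfsg.Agent.Lib.H15SVa
import Cfsg.Agent.Lib.H15SA
import Cfsg.Agent.Lib.H15SB
import Cfsg.Agent.Lib.H15SD

set_option autoImplicit false
set_option linter.all false

namespace Cfsg.Agent.Lib.H15SV

open Subgroup Cfsg.Agent.Lib.H15S

variable {G : Type*} [Group G] [Finite G]

theorem B_norm9 (h : HK G) (h27 : ¬ 27 ∣ Nat.card G) {k : G} (hk : orderOf k = 3)
    {U : Subgroup G} (hU : KMax k U) :
    Group.IsNilpotent U ∧ k ∈ normalizer (U : Set G) ∧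
      (Nat.card (normalizer (U : Set G)) = 3 * Nat.card U ∨
        Nat.card (normalizer (U : Set G)) = 6 * Nat.card U) :=
  H15SB.B_norm_of hk hU (H15SA.A_struct h hk (mem_normalizer_fintype fun n hn => hU.1.1 n hn)
    (H15SB.B0_nine h h27 hk hU.1 hU.2.1))

/-- piece V -/
theorem V_four (h : HK G) {q a b : ℕ} (hq : q.Prime) (hq2 : q ≠ 2) (hq3 : q ≠ 3) (ha : 3 ≤ a)
    (hcard : Nat.card G = 9 * 2 ^ a * q ^ b) {k : G} (hk : orderOf k = 3) :
    Nat.card {U : Subgroup G // KMax k U ∧ Nat.card U % 8 = 4} ≤ 9 := by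
  have h27 : ¬ 27 ∣ Nat.card G := by
    intro hd
    rw [hcard, show 27 = 9 * 3 from rfl, mul_assoc] at hd
    have h3 : 3 ∣ 2 ^ a * q ^ b := Nat.dvd_of_mul_dvd_mul_left (by norm_num) hd
    rcases (Nat.prime_three.dvd_mul).1 h3 with h4 | h4
    · have := Nat.prime_three.dvd_of_dvd_pow h4
      omega
    · have h5 := Nat.prime_three.dvd_of_dvd_pow h4
      exact hq3 ((Nat.prime_dvd_prime_iff_eq Nat.prime_three hq).1 h5).symm
  apply V_aux h hk (fun U hU => B_norm9 h h27 hk hU) (fun U hU => H15SD.D_aux h hk hU (B_norm9 h h27 hk hU))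
  rw [hcard]
  exact Dvd.dvd.mul_right (Dvd.dvd.mul_left (pow_dvd_pow 2 ha) 9) _

end Cfsg.Agent.Lib.H15SV
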