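import Cfsg.Agent.Lib.H15SIa
import Cfsg.Agent.Lib.H15SC
import Cfsg.Agent.Lib.H15SV
import Cfsg.Agent.Lib.H15SP
import Cfsg.Agent.Lib.H15SE0
import Cfsg.Agent.Lib.H15SF1c
import Cfsg.Agent.Lib.H15SF2
import Cfsg.Agent.Lib.H15SGam

set_option autoImplicit false

/-! S2220: the bound for the number of pairs, exact form (all pieces put together) -/

namespace Cfsg.Agent.Lib.H15SBd91

open Subgroup Cfsg.Agent.Lib.H15S

variable {G : Type*} [Group G] [Finite G]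

omit [Finite G] in
theorem n27 {q a b : ℕ} (hq : q.Prime) (hq3 : q ≠ 3) (hcard : Nat.card G = 9 * 2 ^ a * q ^ b) :
    ¬ 27 ∣ Nat.card G := by
  intro hd
  rw [hcard, show 27 = 9 * 3 from rfl, mul_assoc] at hd
  have h3 : 3 ∣ 2 ^ a * q ^ b := Nat.dvd_of_mul_dvd_mul_left (by norm_num) hd
  rcases (Nat.prime_three.dvd_mul).1 h3 with h4 | h4
  · have := Nat.prime_three.dvd_of_dvd_pow h4
    omega
  · have h5 := Nat.prime_three.dvd_of_dvd_pow h4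
    exact hq3 ((Nat.prime_dvd_prime_iff_eq Nat.prime_three hq).1 h5).symm

theorem E_q (h : HK G) {q a b : ℕ} (hq : q.Prime) (hq2 : q ≠ 2) (hq3 : q ≠ 3)
    (hcard : Nat.card G = 9 * 2 ^ a * q ^ b) {k : G} (hk : orderOf k = 3)
    {U U' : Subgroup G} (hU : KMax k U) (hU' : KMax k U') (hqU : q ∣ Nat.card U)
    (hqU' : q ∣ Nat.card U') :
    (∃ g : G, U' = U.map (MulAut.conj g).toMonoidHom) ∧ q ^ b ∣ Nat.card U ∧ q ^ b % 3 = 1 :=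
  Cfsg.Agent.Lib.H15SE.E_q_of h (fun _ hk _ hkH h9 => H15SA.A_struct h hk hkH h9) hq hq2 hq3 hcard hk hU hU' hqU hqU'

/-- piece F1 -/
theorem F1 [IsSimpleGroup G] (h : HK G) {q a b : ℕ} (hq : q.Prime)
    (hq2 : q ≠ 2) (hq3 : q ≠ 3)
    (hcard : Nat.card G = 9 * 2 ^ a * q ^ b) {k : G} (hk : orderOf k = 3)
    {U : Subgroup G} (hU : KMax k U) (h8 : 8 ∣ Nat.card U) :
    IsPGroup 2 U ∧
      ((Nat.card (normalizer (U : Set G)) = 3 * Nat.card U ∧ Nat.card U = 2 ^ a) ∨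
        (Nat.card (normalizer (U : Set G)) = 6 * Nat.card U ∧ 2 * Nat.card U = 2 ^ a)) :=
  Cfsg.Agent.Lib.H15SF1.F1' h hq hq2 hq3 hcard hU h8 (Cfsg.Agent.Lib.H15SV.B_norm9 h (n27 hq hq3 hcard) hk hU)
    (fun _ hT1 hTU hle hc => Cfsg.Agent.Lib.H15SC.C_same h (n27 hq hq3 hcard) hk hU hT1 hTU hle hc)
    (fun hqU => (E_q h hq hq2 hq3 hcard hk hU hU hqU hqU).2.1)
    (fun _ _ _ _ _ hS h1 h2 hNC => Cfsg.Agent.Lib.H15SGam.Gam hS h1 h2 hNC)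

/-- piece I (the bound) -/
theorem bound [IsSimpleGroup G] (h : HK G) {q a b : ℕ}
    (hq : q.Prime) (hq2 : q ≠ 2) (hq3 : q ≠ 3) (ha : 3 ≤ a)
    (hcard : Nat.card G = 9 * 2 ^ a * q ^ b) {k : G} (hk : orderOf k = 3) :
    Nat.card {p : G × G // orderOf p.1 = 3 ∧ orderOf p.2 = 3 ∧ p.1 * p.2 = k⁻¹} ≤
      34 + (if a % 2 = 0 then 6 * (2 ^ a - 1) else 3 * (2 ^ (a - 1) - 1)) +
      (if q ^ b % 3 = 1 then 12 * q ^ b else 0) := by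
  have h27 : ¬ 27 ∣ Nat.card G := n27 hq hq3 hcard
  refine Cfsg.Agent.Lib.H15SIa.bound' h hq hq2 hq3 ha hcard hk ?_ ?_ ?_ ?_ ?_ ?_ ?_ ?_
  · exact fun u v hu hv huv => Cfsg.Agent.Lib.H15SP.P_pairs h h27 hk hu hv huv
  · exact fun U hU => Cfsg.Agent.Lib.H15SV.B_norm9 h h27 hk hU
  · exact fun U T hU hT1 hTU hle hc => Cfsg.Agent.Lib.H15SC.C_same h h27 hk hU hT1 hTU hle hc
  · exact fun U hU => Cfsg.Agent.Lib.H15SD.D_aux h hk hU (Cfsg.Agent.Lib.H15SV.B_norm9 h h27 hk hU)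
  · exact fun U U' hU hU' hq1 hq4 => E_q h hq hq2 hq3 hcard hk hU hU' hq1 hq4
  · exact fun U hU h8 => F1 h hq hq2 hq3 hcard hk hU h8
  · exact fun U U' hU hU' h8 h2 h2' h8' hc hc' => Cfsg.Agent.Lib.H15SF2.F2_of
      (fun hk' _ hU _ hT1 hTU hle hc => Cfsg.Agent.Lib.H15SC.C_same h h27 hk' hU hT1 hTU hle hc)
      (fun hS h1 h2 hNC => Cfsg.Agent.Lib.H15SGam.Gam hS h1 h2 hNC) h hq hq2 hq3 hcard hk hU hU' h8 h2 h2' h8' hc hc'
  · exact Cfsg.Agent.Lib.H15SV.V_four h hq hq2 hq3 ha hcard hk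

end Cfsg.Agent.Lib.H15SBd91
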