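import Mathlib
import Cfsg.Agent.Lib.H15SB
import Cfsg.Agent.Lib.H15SA

set_option autoImplicit false
set_option linter.all false

/-! S2220, piece B -/

namespace Cfsg.Agent.Lib.H15SBn

open Subgroup Cfsg.Agent.Lib.H15S

section
variable {G : Type*} [Group G] [Finite G]

/-- piece B -/
theorem B_norm (h : HK G) (h27 : ¬ 27 ∣ Nat.card G) {k : G} (hk : orderOf k = 3)
    {U : Subgroup G} (hU : KMax k U) :
    Group.IsNilpotent U ∧ k ∈ normalizer (U : Set G) ∧
      (Nat.card (normalizer (U : Set G)) = 3 * Nat.card U ∨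
        Nat.card (normalizer (U : Set G)) = 6 * Nat.card U) :=
  Cfsg.Agent.Lib.H15SB.B_norm_of hk hU (Cfsg.Agent.Lib.H15SA.A_struct h hk
    (Cfsg.Agent.Lib.H15SB.mem_norm hU.1) (Cfsg.Agent.Lib.H15SB.B0_nine h h27 hk hU.1 hU.2.1))

end

end Cfsg.Agent.Lib.H15SBn
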