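import Cfsg.Agent.Lib.H15SD
import Cfsg.Agent.Lib.H15SV

set_option autoImplicit false

namespace Cfsg.Agent.Lib.H15SD

open Subgroup Cfsg.Agent.Lib.H15S

/-- piece D -/
theorem D_count {G : Type*} [Group G] [Finite G] (h : HK G) (h27 : ¬ 27 ∣ Nat.card G) {k : G}
    (hk : orderOf k = 3) {U : Subgroup G} (hU : KMax k U) :
    Nat.card {V : Subgroup G // KMax k V ∧ ∃ g : G, V = U.map (MulAut.conj g).toMonoidHom} *
      Nat.card (normalizer (U : Set G)) ≤ 18 * Nat.card U :=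
  D_aux h hk hU (Cfsg.Agent.Lib.H15SV.B_norm9 h h27 hk hU)

end Cfsg.Agent.Lib.H15SD
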