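import Mathlib
import Cfsg.Agent.Lib.H15SF2
import Cfsg.Agent.Lib.H15SC
import Cfsg.Agent.Lib.H62GamF

set_option autoImplicit false
set_option linter.all false

namespace Cfsg.Agent.Lib.H15SF2e

open Subgroup Cfsg.Agent.Lib.H15S

variable {G : Type*} [Group G] [Finite G]

theorem not27 {q a b n : ℕ} (hq : q.Prime) (hq3 : q ≠ 3) (hcard : n = 9 * 2 ^ a * q ^ b) : ¬ 27 ∣ n := by
  rw [hcard]
  intro h
  have h1 : (3 : ℕ) ∣ 2 ^ a * q ^ b := by
    have h2 : 9 * 3 ∣ 9 * (2 ^ a * q ^ b) := by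
      rw [show 9 * (2 ^ a * q ^ b) = 9 * 2 ^ a * q ^ b by ring]; exact h
    exact Nat.dvd_of_mul_dvd_mul_left (by norm_num) h2
  rcases (Nat.prime_three.dvd_mul).1 h1 with h2 | h2
  · have := (Nat.prime_dvd_prime_iff_eq Nat.prime_three Nat.prime_two).1 (Nat.prime_three.dvd_of_dvd_pow h2)
    omega
  · have := (Nat.prime_dvd_prime_iff_eq Nat.prime_three hq).1 (Nat.prime_three.dvd_of_dvd_pow h2)
    exact hq3 this.symm

/-- piece F2 (exact) -/
theorem F2 (h : HK G) {q a b : ℕ} (hq : q.Prime) (hq2 : q ≠ 2) (hq3 : q ≠ 3)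
    (hcard : Nat.card G = 9 * 2 ^ a * q ^ b) {k : G} (hk : orderOf k = 3)
    {U U' : Subgroup G} (hU : KMax k U) (hU' : KMax k U') (h8 : 8 ∣ Nat.card U)
    (h2 : IsPGroup 2 U) (h2' : IsPGroup 2 U') (h8' : 8 ∣ Nat.card U')
    (hc : (Nat.card (normalizer (U : Set G)) = 3 * Nat.card U ∧ Nat.card U = 2 ^ a) ∨
        (Nat.card (normalizer (U : Set G)) = 6 * Nat.card U ∧ 2 * Nat.card U = 2 ^ a))
    (hc' : (Nat.card (normalizer (U' : Set G)) = 3 * Nat.card U' ∧ Nat.card U' = 2 ^ a) ∨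
        (Nat.card (normalizer (U' : Set G)) = 6 * Nat.card U' ∧ 2 * Nat.card U' = 2 ^ a)) :
    ∃ g : G, U' = U.map (MulAut.conj g).toMonoidHom := by
  have h27 := not27 hq hq3 hcard
  refine H15SF2.F2_of ?_ ?_ h hq hq2 hq3 hcard hk hU hU' h8 h2 h2' h8' hc hc'
  · intro k hk U hU T hT1 hTU hle hc
    exact H15SC.C_same h h27 hk hU hT1 hTU hle hc
  · intro S H₁ H₂ U₁ U₂ hS s1 s2 hNC
    exact H62Gam.Gam hS s1 s2 hNC

end Cfsg.Agent.Lib.H15SF2e
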