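import Mathlib
import Cfsg.Agent.Lib.H15N5
import Cfsg.Agent.Lib.H15NUM1
import Cfsg.Agent.Lib.H15SX
import Cfsg.Agent.Lib.H15SI
import Cfsg.Agent.Lib.H82K9Char

set_option autoImplicit false

namespace Cfsg.Agent.Lib.H15SFin

open Cfsg.Agent.Lib.H15S

universe u

theorem fin_case {G : Type u} [Group G] [Finite G] [IsSimpleGroup G] (hG : ¬ IsMulCommutative G)
    (q a b : ℕ) (hq : q.Prime) (hq2 : q ≠ 2) (hq3 : q ≠ 3) (hcard : Nat.card G = 9 * 2 ^ a * q ^ b)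
    (R : Sylow 3 G) (hR : ∀ k ∈ (R : Subgroup G), k ≠ 1 → Subgroup.centralizer ({k} : Set G) = R)
    (h : HK G) (hR9 : Nat.card R = 9) (h3 : ∀ k ∈ (R : Subgroup G), k ^ 3 = 1)
    (hone : ∀ k k' : G, orderOf k = 3 → orderOf k' = 3 → IsConj k k') : False := by
  have h72 := Cfsg.Agent.Lib.H15SX.X72 h hq hq2 hq3 hcard
  have ha : 3 ≤ a := by
    by_contra hlt
    have hqo : q ^ b % 2 = 1 := Nat.odd_iff.1 ((hq.odd_of_ne_two hq2).pow)
    have : a = 0 ∨ a = 1 ∨ a = 2 := by omega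
    rcases this with rfl | rfl | rfl <;> simp at h72 <;> omega
  obtain ⟨k, hk⟩ : ∃ k : G, orderOf k = 3 := by
    haveI : Fact (Nat.Prime 3) := ⟨Nat.prime_three⟩
    exact exists_prime_orderOf_dvd_card' 3 (by rw [hcard]; exact ⟨3 * 2 ^ a * q ^ b, by ring⟩)
  have hk' : orderOf k⁻¹ = 3 := by rw [orderOf_inv]; exact hk
  obtain ⟨ι, _, v, d, T, T', v0, s8, s1, m9, d1, dq, sq, Tq, T2, Tx, Ty, hN⟩ :=
    Cfsg.Agent.Lib.H82K9.char_data hG q a b hq hq2 hq3 hcard R hR9 hR h3 hone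
  have hb := Cfsg.Agent.Lib.H15SI.bound hG h hq hq2 hq3 ha hcard hk
  have hN' := hN k⁻¹ hk'
  set N := Nat.card {p : G × G // orderOf p.1 = 3 ∧ orderOf p.2 = 3 ∧ p.1 * p.2 = k⁻¹} with hNdef
  have hN1 : 0 < N := by
    have : Nonempty {p : G × G // orderOf p.1 = 3 ∧ orderOf p.2 = 3 ∧ p.1 * p.2 = k⁻¹} := by
      refine ⟨⟨(k, k), hk, hk, ?_⟩⟩
      have h3 : k ^ 3 = 1 := hk ▸ pow_orderOf_eq_one k
      show k * k = k⁻¹
      rw [eq_inv_iff_mul_eq_one]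
      calc k * k * k = k ^ 3 := by rw [pow_succ, pow_two]
        _ = 1 := h3
    exact Nat.card_pos
  have hD : NumData v d T T' q a b N := ⟨hq, hq2, hq3, v0, s8, s1, m9, d1, dq, sq, Tq, T2, Tx, Ty, hN', hN1⟩
  exact Cfsg.Agent.Lib.H15N2.num_search hD (Cfsg.Agent.Lib.H15SNUM1.num_region hD) h72 hb

end Cfsg.Agent.Lib.H15SFin
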