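import Cfsg.Agent.Lib.H15Ta
import Cfsg.Agent.S1225
import Cfsg.Prelude.Def_CaseTheorems

/-! Piece D2card of helper15's plan for S3718 (helper95) -/

set_option autoImplicit false
set_option linter.all false

namespace Cfsg.Agent.Lib.H15T

open Subgroup Cfsg

variable {G : Type*} [Group G] [Finite G]

/-- the `2`-elements of the normalizer of a Sylow `2`-subgroup lie in it -/
theorem d2_mem_of_orderOf (S : Sylow 2 G) {x : G} (hx : orderOf x = 2)
    (hxN : x ∈ normalizer ((S : Subgroup G) : Set G)) : x ∈ (S : Subgroup G) := by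
  have hP : IsPGroup 2 (zpowers x) := by
    apply IsPGroup.of_card (n := 1)
    rw [Nat.card_zpowers, hx, pow_one]
  have h : zpowers x ⊓ normalizer ((S : Subgroup G) : Set G) = zpowers x ⊓ (S : Subgroup G) :=
    hP.inf_normalizer_sylow S
  have h1 : x ∈ (zpowers x) ⊓ normalizer ((S : Subgroup G) : Set G) := ⟨mem_zpowers x, hxN⟩
  rw [h] at h1
  exact h1.2

/-- orbit-stabilizer for a subgroup `D` permuting transitively (by conjugation) a finite set of elements -/
theorem d2_orbit_card (D : Subgroup G) (X : Set G) {z : G} (hz : z ∈ X)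
    (hX : ∀ d ∈ D, d * z * d⁻¹ ∈ X) (htr : ∀ x ∈ X, ∃ d ∈ D, d * z * d⁻¹ = x) :
    Nat.card D = X.ncard * Nat.card ↥(D ⊓ centralizer ({z} : Set G) : Subgroup G) := by
  classical
  letI : MulAction D G := MulAction.compHom G ((ConjAct.toConjAct (G := G)).toMonoidHom.comp D.subtype)
  have hsm : ∀ (d : D) (g : G), d • g = (d : G) * g * (d : G)⁻¹ := fun d g => rfl
  have horb : MulAction.orbit D z = X := by
    ext x
    rw [MulAction.mem_orbit_iff]
    constructor
    · rintro ⟨d, rfl⟩
      rw [hsm]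
      exact hX d d.2
    · intro hx
      obtain ⟨d, hd, rfl⟩ := htr x hx
      exact ⟨⟨d, hd⟩, hsm _ _⟩
  have hst : MulAction.stabilizer D z = (D ⊓ centralizer ({z} : Set G)).subgroupOf D := by
    ext d
    rw [MulAction.mem_stabilizer_iff, hsm, mem_subgroupOf, mem_inf, mem_centralizer_singleton_iff]
    constructor
    · intro h
      exact ⟨d.2, mul_inv_eq_iff_eq_mul.1 h⟩
    · intro h
      exact mul_inv_eq_iff_eq_mul.2 h.2
  have h1 := Nat.card_congr (MulAction.orbitProdStabilizerEquivGroup D z)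
  rw [Nat.card_prod, horb, hst, Nat.card_coe_set_eq,
    Nat.card_congr (subgroupOfEquivOfLe (inf_le_left : D ⊓ centralizer ({z} : Set G) ≤ D)).toEquiv] at h1
  exact h1.symm

/-- for an involution `u` outside `N = N(S)`, with `D = N ∩ N^u`, `z ∈ S` an involution -/
theorem d2_card (S : Sylow 2 G) (hS2 : ∀ s ∈ (S : Subgroup G), s * s = 1)
    (hN : IsStronglyEmbedded (normalizer ((S : Subgroup G) : Set G)))
    {u : G} (hu : orderOf u = 2) (huN : u ∉ normalizer ((S : Subgroup G) : Set G)) {z : G}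
    (hz : z ∈ (S : Subgroup G)) (hz1 : z ≠ 1) :
    Nat.card ↥(normalizer ((S : Subgroup G) : Set G) ⊓ (normalizer ((S : Subgroup G) : Set G)).map (MulAut.conj u).toMonoidHom : Subgroup G)
      = (Nat.card S - 1) * Nat.card ↥((normalizer ((S : Subgroup G) : Set G) ⊓ (normalizer ((S : Subgroup G) : Set G)).map (MulAut.conj u).toMonoidHom) ⊓ centralizer ({z} : Set G) : Subgroup G) := by
  have hord : ∀ s ∈ (S : Subgroup G), s ≠ 1 → orderOf s = 2 := by
    intro s hs hs1
    rw [orderOf_eq_prime_iff]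
    exact ⟨by rw [pow_two]; exact hS2 s hs, hs1⟩
  have key := d2_orbit_card
    (normalizer ((S : Subgroup G) : Set G) ⊓ (normalizer ((S : Subgroup G) : Set G)).map (MulAut.conj u).toMonoidHom)
    (((S : Subgroup G) : Set G) \ {1}) (z := z) ⟨hz, hz1⟩ ?_ ?_
  · rw [key]
    congr 1
    rw [Set.ncard_sdiff_singleton_of_mem (one_mem _)]
    rfl
  · intro d hd
    refine ⟨(mem_normalizer_iff.1 hd.1 z).1 hz, ?_⟩
    intro h
    apply hz1
    have h2 : d * z * d⁻¹ = 1 := h
    rw [mul_inv_eq_one] at h2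
    simpa using h2
  · intro x hx
    exact (Cfsg.Agent.S1225.result _ hN u hu huN z x (hord z hz hz1) (Subgroup.le_normalizer hz)
      (hord x hx.1 hx.2) (Subgroup.le_normalizer hx.1)).1

end Cfsg.Agent.Lib.H15T
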