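import Cfsg.Agent.Lib.PSL2Orders
import Cfsg.Agent.Lib.ClSmall
import Cfsg.Agent.S0493

/-!
Piece E of S3718 (helper44): simple groups `PSL(2,F)` with at most one composite element order.
-/

set_option autoImplicit false

namespace Cfsg.Agent.Lib.H15TE

/-- all composite divisors of `a` or `b` are equal -/
def OneC (a b : ℕ) : Prop :=
  ∀ m m' : ℕ, (m ∣ a ∨ m ∣ b) → (m' ∣ a ∨ m' ∣ b) → 1 < m → ¬ m.Prime → 1 < m' → ¬ m'.Prime → m = m'

theorem OneC.symm {a b : ℕ} (h : OneC a b) : OneC b a :=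
  fun m m' hm hm' => h m m' hm.symm hm'.symm

/-- a proper divisor `> 1` of `a` is prime -/
theorem OneC.prime_of_dvd {a b m : ℕ} (h : OneC a b) (ha : 0 < a) (hm : m ∣ a) (h1 : 1 < m) (hne : m ≠ a) :
    m.Prime := by
  by_contra hc
  have hle := Nat.le_of_dvd ha hm
  refine hne (h m a (Or.inl hm) (Or.inl dvd_rfl) h1 hc (by omega) ?_)
  intro hp
  rcases (Nat.dvd_prime hp).1 hm with h2 | h2
  · omega
  · exact hne h2

/-- if `a` is composite, `b` is prime or `1` -/
theorem OneC.prime_right {a b : ℕ} (h : OneC a b) (ha : 1 < a) (hap : ¬ a.Prime) (hb : 1 < b) (hne : a ≠ b) :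
    b.Prime := by
  by_contra hc
  exact hne (h a b (Or.inl dvd_rfl) (Or.inr dvd_rfl) ha hap hb hc)

theorem not_prime_mul {a b : ℕ} (ha : 1 < a) (hb : 1 < b) : ¬ (a * b).Prime :=
  Nat.not_prime_mul (by omega) (by omega)

/-- even case -/
theorem arith_even (n : ℕ) (hn : 2 ≤ n) (h : OneC (2 ^ n - 1) (2 ^ n + 1)) :
    n = 2 ∨ n = 4 ∨ ∃ r : ℕ, (2 ^ n - 1).Prime ∧ r.Prime ∧ 2 ^ n + 1 = 3 * r := by
  have h4 : 4 ≤ 2 ^ n := by
    calc 4 = 2 ^ 2 := by norm_num
      _ ≤ 2 ^ n := Nat.pow_le_pow_right (by norm_num) hn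
  rcases Nat.even_or_odd' n with ⟨m, rfl | rfl⟩
  · -- n = 2m
    by_cases hm1 : m = 1
    · left; omega
    by_cases hm2 : m = 2
    · right; left; omega
    exfalso
    have hm3 : 3 ≤ m := by omega
    have h8 : 8 ≤ 2 ^ m := by
      calc 8 = 2 ^ 3 := by norm_num
        _ ≤ 2 ^ m := Nat.pow_le_pow_right (by norm_num) hm3
    have hfac : 2 ^ (2 * m) - 1 = (2 ^ m - 1) * (2 ^ m + 1) := by
      obtain ⟨c, hc⟩ := Nat.exists_eq_add_of_le h8
      rw [two_mul, pow_add, hc]
      have : (8 + c) * (8 + c) - 1 = (8 + c - 1) * (8 + c + 1) := by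
        have h1 : 8 + c - 1 = 7 + c := by omega
        rw [h1]
        have h2 : (8 + c) * (8 + c) = (7 + c) * (8 + c + 1) + 1 := by ring
        omega
      exact this
    -- 3 divides one of the factors
    have h3 : 3 ∣ (2 ^ m - 1) ∨ 3 ∣ (2 ^ m + 1) := by
      have hmod : 2 ^ m % 3 = 1 ∨ 2 ^ m % 3 = 2 := by
        clear * -
        induction m with
        | zero => left; norm_num
        | succ k ih => rw [pow_succ]; omega
      omega
    rcases h3 with h3 | h3
    · -- 3 * (2^m+1) divides a: composite, and a itself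
      have h5 : 3 * (2 ^ m + 1) ∣ 2 ^ (2 * m) - 1 := by
        rw [hfac]; exact Nat.mul_dvd_mul_right h3 _
      have h6 : ¬ (3 * (2 ^ m + 1)).Prime := not_prime_mul (by norm_num) (by omega)
      have h7 : ¬ ((2 ^ m - 1) * (2 ^ m + 1)).Prime := not_prime_mul (by omega) (by omega)
      have h8' := h _ (2 ^ (2 * m) - 1) (Or.inl h5) (Or.inl dvd_rfl) (by omega) h6 (by omega) (by rw [hfac]; exact h7)
      rw [hfac] at h8'
      have h9 := Nat.eq_of_mul_eq_mul_right (by omega) h8'
      omega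
    · have h5 : (2 ^ m - 1) * 3 ∣ 2 ^ (2 * m) - 1 := by
        rw [hfac]; exact Nat.mul_dvd_mul_left _ h3
      have h6 : ¬ ((2 ^ m - 1) * 3).Prime := not_prime_mul (by omega) (by norm_num)
      have h7 : ¬ ((2 ^ m - 1) * (2 ^ m + 1)).Prime := not_prime_mul (by omega) (by omega)
      have h8' := h _ (2 ^ (2 * m) - 1) (Or.inl h5) (Or.inl dvd_rfl) (by omega) h6 (by omega) (by rw [hfac]; exact h7)
      rw [hfac] at h8'
      have h9 := Nat.eq_of_mul_eq_mul_left (by omega) h8'
      omega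
  · -- n = 2m+1
    right; right
    have h3 : 3 ∣ 2 ^ (2 * m + 1) + 1 := by
      have hmod : 2 ^ (2 * m + 1) % 3 = 2 := by
        clear * -
        induction m with
        | zero => norm_num
        | succ k ih =>
          have : 2 ^ (2 * (k + 1) + 1) = 4 * 2 ^ (2 * k + 1) := by ring
          rw [this]; omega
      omega
    obtain ⟨r, hr⟩ := h3
    have h8 : 8 ≤ 2 ^ (2 * m + 1) := by
      calc 8 = 2 ^ 3 := by norm_num
        _ ≤ 2 ^ (2 * m + 1) := Nat.pow_le_pow_right (by norm_num) (by omega)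
    have hr1 : 1 < r := by omega
    have hbc : ¬ (2 ^ (2 * m + 1) + 1).Prime := by
      rw [hr]; exact not_prime_mul (by norm_num) hr1
    refine ⟨r, h.symm.prime_right (by omega) hbc (by omega) (by omega), ?_, hr⟩
    exact h.symm.prime_of_dvd (by omega) (Dvd.intro_left 3 hr.symm) hr1 (by omega)

/-- odd case: `a, a+1` -/
theorem arith_odd (a : ℕ) (ha : 2 ≤ a) (h : OneC a (a + 1)) :
    a = 2 ∨ a = 3 ∨ a = 4 ∨ (∃ s, s.Prime ∧ s ≠ 2 ∧ a = 2 * s ∧ (a + 1).Prime) ∨
      (∃ s, s.Prime ∧ s ≠ 2 ∧ a + 1 = 2 * s ∧ a.Prime) := by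
  rcases Nat.even_or_odd' a with ⟨m, rfl | rfl⟩
  · -- a = 2m even
    by_cases hm1 : m = 1
    · left; omega
    have hm : 1 < m := by omega
    have hap : ¬ (2 * m).Prime := not_prime_mul (by norm_num) hm
    have hmp : m.Prime := h.prime_of_dvd (by omega) (Dvd.intro_left 2 rfl) hm (by omega)
    have hbp : (2 * m + 1).Prime := h.prime_right (by omega) hap (by omega) (by omega)
    by_cases hm2 : m = 2
    · right; right; left; omega
    · right; right; right; left
      exact ⟨m, hmp, hm2, rfl, hbp⟩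
  · -- a + 1 = 2(m+1)
    have hb : 2 * m + 1 + 1 = 2 * (m + 1) := by ring
    have hm : 1 < m + 1 := by omega
    have hap : ¬ (2 * m + 1 + 1).Prime := by rw [hb]; exact not_prime_mul (by norm_num) hm
    have hmp : (m + 1).Prime := h.symm.prime_of_dvd (by omega) (Dvd.intro_left 2 hb.symm) hm (by omega)
    have hbp : (2 * m + 1).Prime := h.symm.prime_right (by omega) hap (by omega) (by omega)
    by_cases hm2 : m + 1 = 2
    · right; left; omega
    · right; right; right; right
      exact ⟨m + 1, hmp, hm2, hb, hbp⟩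

theorem three_pow_mod (n : ℕ) : (Even n → 3 ^ n % 8 = 1) ∧ (Odd n → 3 ^ n % 8 = 3) := by
  constructor
  · rintro ⟨m, rfl⟩
    induction m with
    | zero => norm_num
    | succ k ih =>
      have : 3 ^ (k + 1 + (k + 1)) = 9 * 3 ^ (k + k) := by ring
      rw [this]; omega
  · rintro ⟨m, rfl⟩
    induction m with
    | zero => norm_num
    | succ k ih =>
      have : 3 ^ (2 * (k + 1) + 1) = 9 * 3 ^ (2 * k + 1) := by ring
      rw [this]
      generalize 3 ^ (2 * k + 1) = y at *
      omega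

theorem three_aux {q a : ℕ} (ha : q = 2 * a + 1) (h3 : ¬ 3 ∣ q) : 3 ∣ a ∨ 3 ∣ (a + 1) := by
  rcases (by omega : a % 3 = 0 ∨ a % 3 = 1 ∨ a % 3 = 2) with h | h | h
  · left; omega
  · exfalso; apply h3; omega
  · right; omega

theorem arith_odd' (q p n : ℕ) (hp : p.Prime) (hq : q = p ^ n) (hodd : Odd q) (h4 : 4 ≤ q)
    (h : OneC ((q - 1) / 2) ((q + 1) / 2)) :
    q = 5 ∨ q = 7 ∨ q = 9 ∨ q = 11 ∨ q = 13 ∨
      (∃ n r s : ℕ, r.Prime ∧ s.Prime ∧ 3 ^ n - 1 = 2 * r ∧ 3 ^ n + 1 = 4 * s ∧ q = 3 ^ n) := by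
  obtain ⟨a, ha⟩ := hodd
  have e1 : (q - 1) / 2 = a := by omega
  have e2 : (q + 1) / 2 = a + 1 := by omega
  rw [e1, e2] at h
  have h2a : 2 ≤ a := by omega
  have hp3 : 3 ∣ q → ∃ n, q = 3 ^ n := by
    intro h3
    rw [hq] at h3
    have := (Nat.prime_dvd_prime_iff_eq Nat.prime_three hp).1 (Nat.prime_three.dvd_of_dvd_pow h3)
    exact ⟨n, by rw [hq, ← this]⟩
  rcases arith_odd a h2a h with h1 | h1 | h1 | ⟨s, hs, hs2, h1, h2⟩ | ⟨s, hs, hs2, h1, h2⟩
  · left; omega
  · right; left; omega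
  · right; right; left; omega
  · -- a = 2s, a+1 prime
    by_cases h3 : 3 ∣ q
    · obtain ⟨n, hn⟩ := hp3 h3
      exfalso
      rcases Nat.even_or_odd n with he | ho
      · have := (three_pow_mod n).1 he
        rw [← hn] at this
        have hs' := hs.eq_two_or_odd
        omega
      · have := (three_pow_mod n).2 ho
        rw [← hn] at this
        omega
    · -- 3 | a or 3 | a+1
      have h5 : 3 ∣ a ∨ 3 ∣ (a + 1) := three_aux ha h3
      rcases h5 with h5 | h5
      · have h6 : 3 ∣ s := by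
          rw [h1] at h5
          exact (Nat.Coprime.dvd_of_dvd_mul_left (by norm_num) h5)
        have h7 := (Nat.prime_dvd_prime_iff_eq Nat.prime_three hs).1 h6
        right; right; right; right; left
        omega
      · have h7 := (Nat.prime_dvd_prime_iff_eq Nat.prime_three h2).1 h5
        have := hs.two_le
        omega
  · by_cases h3 : 3 ∣ q
    · obtain ⟨n, hn⟩ := hp3 h3
      rcases Nat.even_or_odd n with he | ho
      · exfalso
        have := (three_pow_mod n).1 he
        rw [← hn] at this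
        have hs' := hs.eq_two_or_odd
        have h2' := h2.eq_two_or_odd
        omega
      · have := (three_pow_mod n).2 ho
        rw [← hn] at this
        right; right; right; right; right
        exact ⟨n, a, s, h2, hs, by omega, by omega, hn⟩
    · have h5 : 3 ∣ a ∨ 3 ∣ (a + 1) := three_aux ha h3
      rcases h5 with h5 | h5
      · have h7 := (Nat.prime_dvd_prime_iff_eq Nat.prime_three h2).1 h5
        omega
      · have h6 : 3 ∣ s := by
          rw [h1] at h5
          exact (Nat.Coprime.dvd_of_dvd_mul_left (by norm_num) h5)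
        have h7 := (Nat.prime_dvd_prime_iff_eq Nat.prime_three hs).1 h6
        right; right; right; left
        omega

theorem card_ne {G : Type*} [Group G] [Finite G] [IsSimpleGroup G] (h : Nat.card G = 6 ∨ Nat.card G = 12) : False := by
  by_cases hc : IsCyclic G
  · letI := IsCyclic.commGroup (α := G)
    have h1 := IsSimpleGroup.prime_card (α := G)
    rcases h with h | h <;> rw [h] at h1 <;> revert h1 <;> decide
  · have h1 := Cfsg.Agent.S0493.result (G := G) hc (by omega)
    omega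

theorem psl2_list {G : Type*} [Group G] [Finite G] [IsSimpleGroup G]
    (h1 : {n : ℕ | n ∈ Set.range (orderOf : G → ℕ) ∧ 1 < n ∧ ¬ n.Prime}.Subsingleton)
    (F : Type) [Field F] [Fintype F] (e : G ≃* Matrix.ProjectiveSpecialLinearGroup (Fin 2) F) :
    (∃ (F : Type) (_ : Field F) (_ : Fintype F), (Fintype.card F = 5 ∨ Fintype.card F = 7 ∨ Fintype.card F = 8 ∨ Fintype.card F = 9 ∨
        Fintype.card F = 11 ∨ Fintype.card F = 13 ∨ Fintype.card F = 16) ∧ Nonempty (G ≃* Matrix.ProjectiveSpecialLinearGroup (Fin 2) F)) ∨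
    (∃ (F : Type) (_ : Field F) (_ : Fintype F), ∃ n r s : ℕ, r.Prime ∧ s.Prime ∧ 3 ^ n - 1 = 2 * r ∧ 3 ^ n + 1 = 4 * s ∧
        Fintype.card F = 3 ^ n ∧ Nonempty (G ≃* Matrix.ProjectiveSpecialLinearGroup (Fin 2) F)) ∨
    (∃ (F : Type) (_ : Field F) (_ : Fintype F), ∃ n r : ℕ, (2 ^ n - 1).Prime ∧ r.Prime ∧ 2 ^ n + 1 = 3 * r ∧
        Fintype.card F = 2 ^ n ∧ Nonempty (G ≃* Matrix.ProjectiveSpecialLinearGroup (Fin 2) F)) := by
  classical
  obtain ⟨p, hchar⟩ := CharP.exists F
  obtain ⟨n, hp, hq⟩ := FiniteField.card F p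
  have : Fact p.Prime := ⟨hp⟩
  have hspec := PSL2Orders.spectrum (F := F) p
  have hq2 : 2 ≤ Fintype.card F := Fintype.one_lt_card
  have h4 : 4 ≤ Fintype.card F := by
    by_contra hc
    push Not at hc
    apply card_ne (G := G)
    have hcard : Nat.card G = Nat.card (Matrix.ProjectiveSpecialLinearGroup (Fin 2) F) := Nat.card_congr e.toEquiv
    rw [hcard]
    have h5 := ClSLn.card_PSL_formula (F := F) rfl 2 (by norm_num)
    simp [Finset.prod_range_succ] at h5
    have h6 : Fintype.card F = 2 ∨ Fintype.card F = 3 := by omega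
    rcases h6 with h6 | h6
    · left
      rw [h6] at h5
      norm_num at h5
      rw [Nat.card_eq_fintype_card]; omega
    · right
      rw [h6] at h5
      norm_num at h5
      rw [Nat.card_eq_fintype_card]; omega
  have hmem : ∀ m : ℕ, (m ∣ (Fintype.card F - 1) / Nat.gcd 2 (Fintype.card F - 1) ∨
        m ∣ (Fintype.card F + 1) / Nat.gcd 2 (Fintype.card F - 1)) → m ∈ Set.range (orderOf : G → ℕ) := by
    intro m hm
    have h5 : m ∈ Set.range (orderOf : Matrix.ProjectiveSpecialLinearGroup (Fin 2) F → ℕ) := by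
      rw [hspec]; exact Or.inr hm
    obtain ⟨x, hx⟩ := h5
    exact ⟨e.symm x, by rw [← hx]; exact MulEquiv.orderOf_eq e.symm x⟩
  have hone : OneC ((Fintype.card F - 1) / Nat.gcd 2 (Fintype.card F - 1))
      ((Fintype.card F + 1) / Nat.gcd 2 (Fintype.card F - 1)) := by
    intro m m' hm hm' h5 h6 h7 h8
    exact h1 ⟨hmem m hm, h5, h6⟩ ⟨hmem m' hm', h7, h8⟩
  rcases hp.eq_two_or_odd' with rfl | hpo
  · -- even
    have hodd : Odd (Fintype.card F - 1) := by
      have h5 : Even (Fintype.card F) := by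
        rw [hq]; exact (Nat.even_pow.2 ⟨even_two, n.ne_zero⟩)
      exact Nat.Even.sub_odd (by omega) h5 odd_one
    rw [Nat.coprime_two_left.2 hodd, Nat.div_one, Nat.div_one, hq] at hone
    have hn2 : 2 ≤ (n : ℕ) := by
      by_contra hc
      have h5 : (n : ℕ) = 1 := by
        have := n.pos; omega
      rw [hq, h5] at h4
      omega
    rcases arith_even n hn2 hone with h5 | h5 | ⟨r, h5, h6, h7⟩
    · -- q = 4
      left
      have hF4 : Fintype.card F = 4 := by rw [hq, h5]; norm_num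
      obtain ⟨e4⟩ := ClSmall.psl2_four (F := F) hF4
      have : Fact (Nat.Prime 5) := ⟨by norm_num⟩
      obtain ⟨e5⟩ := ClSmall.psl2_five (F := ZMod 5) (ZMod.card 5)
      exact ⟨ZMod 5, inferInstance, inferInstance, Or.inl (ZMod.card 5), ⟨(e.trans e4).trans e5.symm⟩⟩
    · left
      have hF : Fintype.card F = 16 := by rw [hq, h5]; norm_num
      exact ⟨F, inferInstance, inferInstance, by omega, ⟨e⟩⟩
    · right; right
      exact ⟨F, inferInstance, inferInstance, n, r, h5, h6, h7, hq, ⟨e⟩⟩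
  · have hodd : Odd (Fintype.card F) := by rw [hq]; exact hpo.pow
    have hev : 2 ∣ Fintype.card F - 1 := by
      obtain ⟨k, hk⟩ := hodd
      exact ⟨k, by omega⟩
    rw [Nat.gcd_eq_left hev] at hone
    rcases arith_odd' (Fintype.card F) p n hp hq hodd h4 hone with h5 | h5 | h5 | h5 | h5 | ⟨n, r, s, h6, h7, h8, h9, h10⟩
    · left; exact ⟨F, inferInstance, inferInstance, by omega, ⟨e⟩⟩
    · left; exact ⟨F, inferInstance, inferInstance, by omega, ⟨e⟩⟩
    · left; exact ⟨F, inferInstance, inferInstance, by omega, ⟨e⟩⟩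
    · left; exact ⟨F, inferInstance, inferInstance, by omega, ⟨e⟩⟩
    · left; exact ⟨F, inferInstance, inferInstance, by omega, ⟨e⟩⟩
    · right; left
      exact ⟨F, inferInstance, inferInstance, n, r, s, h6, h7, h8, h9, h10, ⟨e⟩⟩

end Cfsg.Agent.Lib.H15TE
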