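import Cfsg.Agent.Lib.PSLOut
import Cfsg.Agent.Lib.PSLTwo
import Cfsg.Agent.Lib.PSL2Orders
import Cfsg.Agent.Lib.ClSL2

/-!
Piece Q4 of S4371 (helper44): `L = PSL(2,F)` normal in `G`, `C_G(L) = 1`, even element orders `2` or `2r`,
element orders divisible by `r` are `r` or `2r`: then `L = G`.
-/

set_option autoImplicit false

namespace Cfsg.Agent.Lib.H15TQ4

open Matrix Cfsg Cfsg.Agent.Lib.PSLAut

/-- the order hypothesis on a subgroup of the automorphism group of `PSL(2,F)` -/
structure HA (F : Type*) [Field F] (r : ℕ) (A : Subgroup (MulAut (ProjectiveSpecialLinearGroup (Fin 2) F))) : Prop where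
  rp : r.Prime
  r2 : r ≠ 2
  inn : Inn (ProjectiveSpecialLinearGroup (Fin 2) F) ≤ A
  even : ∀ x ∈ A, 2 ∣ orderOf x → orderOf x = 2 ∨ orderOf x = 2 * r
  rr : ∀ x ∈ A, r ∣ orderOf x → orderOf x = r ∨ orderOf x = 2 * r

variable {F : Type*} [Field F] [Fintype F]

local notation "P2" => ProjectiveSpecialLinearGroup (Fin 2) F
local notation "SL2" => SpecialLinearGroup (Fin 2) F

variable {r : ℕ} {A : Subgroup (MulAut (ProjectiveSpecialLinearGroup (Fin 2) F))}

theorem HA.no4 (h : HA F r A) {x : MulAut P2} (hx : x ∈ A) (h2 : x ^ 2 ≠ 1) (h4 : x ^ 4 = 1) : False := by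
  have : Fact (Nat.Prime 2) := ⟨Nat.prime_two⟩
  have h5 : orderOf x = 2 ^ (1 + 1) := orderOf_eq_prime_pow (by simpa using h2) (by simpa using h4)
  have h6 := h.even x hx (by rw [h5]; norm_num)
  have := h.r2
  rw [h5] at h6
  omega

/-! ### basic facts -/

theorem conj_mk_eq_one {s : SL2} (h : (MulAut.conj (QuotientGroup.mk s : P2)) = 1) : s = 1 ∨ s = -1 := by
  rw [← toGL_dg, dg_eq_one le_rfl] at h
  rw [← SL2Basic.mem_center_iff', Subgroup.mem_center_iff]
  intro g
  have h1 := Subgroup.mem_center_iff.1 h (SpecialLinearGroup.toGL g)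
  rw [← map_mul, ← map_mul] at h1
  exact SpecialLinearGroup.toGL_injective h1

theorem conj_inj : Function.Injective (MulAut.conj : P2 →* MulAut P2) := by
  rw [injective_iff_map_eq_one]
  intro y hy
  obtain ⟨s, rfl⟩ := QuotientGroup.mk_surjective y
  rw [PSL2Orders.mk_eq_one_iff]
  exact conj_mk_eq_one hy

theorem orderOf_conj' (y : P2) : orderOf (MulAut.conj y) = orderOf y :=
  orderOf_injective _ conj_inj y

theorem inner_iff (g : GL (Fin 2) F) : dg g ∈ Inn P2 ↔ IsSquare g.1.det := by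
  rw [dg_inner_iff le_rfl]
  constructor
  · rintro ⟨u, hu⟩
    refine ⟨(u : F), ?_⟩
    have h1 := congrArg Units.val hu
    rw [Units.val_pow_eq_pow_val, pow_two] at h1
    exact h1
  · rintro ⟨u, hu⟩
    have h0 : g.1.det ≠ 0 := (GeneralLinearGroup.det g).ne_zero
    have hu0 : u ≠ 0 := by
      rintro rfl
      rw [mul_zero] at hu
      exact h0 hu
    refine ⟨Units.mk0 u hu0, ?_⟩
    apply Units.ext
    rw [Units.val_pow_eq_pow_val, pow_two]
    exact hu

theorem sq_mul {a b : F} (ha : ¬ IsSquare a) (hb : ¬ IsSquare b) : IsSquare (a * b) := by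
  by_cases h2 : ringChar F = 2
  · exact FiniteField.isSquare_of_char_two h2 _
  · have ha0 : a ≠ 0 := by rintro rfl; exact ha (IsSquare.zero)
    have hb0 : b ≠ 0 := by rintro rfl; exact hb (IsSquare.zero)
    rw [FiniteField.isSquare_iff h2 (mul_ne_zero ha0 hb0), mul_pow]
    rw [FiniteField.isSquare_iff h2 ha0] at ha
    rw [FiniteField.isSquare_iff h2 hb0] at hb
    rw [(FiniteField.pow_dichotomy h2 ha0).resolve_left ha, (FiniteField.pow_dichotomy h2 hb0).resolve_left hb]
    ring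

/-- the element `[[1,1],[-1,1]]` -/
noncomputable def bG (h2 : (2 : F) ≠ 0) : GL (Fin 2) F :=
  GeneralLinearGroup.mkOfDetNeZero !![1, 1; -1, 1] (by
    rw [det_fin_two_of]; ring_nf; exact h2)

theorem bG_coe (h2 : (2 : F) ≠ 0) : (bG h2).1 = !![1, 1; -1, 1] := rfl

theorem bG_det (h2 : (2 : F) ≠ 0) : (bG h2).1.det = 2 := by
  rw [bG_coe, det_fin_two_of]; ring

theorem bG_sq (h2 : (2 : F) ≠ 0) : (bG h2 ^ 2).1 = !![0, 2; -2, 0] := by
  rw [Units.val_pow_eq_pow_val, bG_coe, pow_two, mul_fin_two]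
  ext i j; fin_cases i <;> fin_cases j <;> simp <;> ring

theorem bG_four (h2 : (2 : F) ≠ 0) : (bG h2 ^ 4).1 = (-4 : F) • (1 : Matrix (Fin 2) (Fin 2) F) := by
  have : bG h2 ^ 4 = bG h2 ^ 2 * bG h2 ^ 2 := by rw [← pow_add]
  rw [this, Units.val_mul, bG_sq, mul_fin_two]
  ext i j; fin_cases i <;> fin_cases j <;> simp <;> ring

theorem HA.bG_notMem (h : HA F r A) (h2 : (2 : F) ≠ 0) : dg (bG h2) ∉ A := by
  intro hb
  apply h.no4 hb
  · rw [← map_pow]
    intro h1
    rw [dg_eq_one le_rfl, GeneralLinearGroup.center_eq_range_scalar] at h1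
    obtain ⟨u, hu⟩ := h1
    have h3 := congrArg (fun M : GL (Fin 2) F => M.1 0 1) hu
    simp only [bG_sq] at h3
    simp [GeneralLinearGroup.scalar] at h3
    exact h2 h3.symm
  · rw [← map_pow]
    rw [dg_eq_one le_rfl, Subgroup.mem_center_iff]
    intro g
    apply Units.ext
    rw [Units.val_mul, Units.val_mul, bG_four]
    simp

theorem HA.not_sq (h : HA F r A) (h2 : (2 : F) ≠ 0) : ¬ IsSquare (2 : F) := by
  intro hs
  apply h.bG_notMem h2
  apply h.inn
  rw [inner_iff, bG_det]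
  exact hs

omit [Fintype F] in
theorem ringChar_two (h2 : (2 : F) = 0) : ringChar F = 2 := by
  have : ringChar F ∣ 2 := (ringChar.spec F 2).1 (by exact_mod_cast h2)
  rcases (Nat.dvd_prime Nat.prime_two).1 this with h3 | h3
  · exact absurd h3 (CharP.char_ne_one F (ringChar F))
  · exact h3

/-- the fixed field of a field automorphism -/
theorem exists_fixed (τ : F ≃+* F) (s : ℕ) (hs : orderOf τ = s) :
    ∃ K : Subfield F, (∀ x : F, x ∈ K ↔ τ x = x) ∧ Nat.card F = Nat.card K ^ s := by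
  classical
  let Z := Subgroup.zpowers (τ : RingAut F)
  have : Finite (RingAut F) := Finite.of_injective (fun σ : F ≃+* F => (σ : F → F)) DFunLike.coe_injective
  have : Fintype Z := Fintype.ofFinite _
  refine ⟨FixedPoints.subfield Z F, ?_, ?_⟩
  · intro x
    constructor
    · intro hx
      exact hx ⟨τ, Subgroup.mem_zpowers _⟩
    · intro hx
      rintro ⟨y, k, rfl⟩
      have hx' : x ∈ MulAction.fixedBy F (τ : RingAut F) := hx
      exact MulAction.fixedBy_subset_fixedBy_zpow F (τ : RingAut F) k hx'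
  · have h1 := FixedPoints.finrank_eq_card Z F
    have h2 := Module.natCard_eq_pow_finrank (K := FixedPoints.subfield Z F) (V := F)
    rw [h1, ← Nat.card_eq_fintype_card, Nat.card_zpowers] at h2
    rw [← hs]
    exact h2

theorem isSquare_two_of_sq (h2 : (2 : F) ≠ 0) {n : ℕ} (hc : Nat.card F = n ^ 2) : IsSquare (2 : F) := by
  rw [FiniteField.isSquare_two_iff, ← Nat.card_eq_fintype_card, hc]
  have hodd : Odd n := by
    rw [← Nat.not_even_iff_odd]
    intro hev
    apply h2
    have h3 : Fintype.card F % 2 = 0 := by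
      rw [← Nat.card_eq_fintype_card, hc, pow_two]
      obtain ⟨k, hk⟩ := hev
      rw [hk]
      have : (k + k) * (k + k) = 2 * ((k + k) * k) := by ring
      rw [this]; omega
    have h4 : ringChar F = 2 := by
      by_contra hne
      have := FiniteField.odd_card_of_char_ne_two hne
      omega
    have h5 := ringChar.Nat.cast_ringChar (R := F)
    rw [h4] at h5
    exact_mod_cast h5
  obtain ⟨k, hk⟩ := hodd
  have h5 : n ^ 2 % 8 = 1 := by
    have h6 : n % 8 = 1 ∨ n % 8 = 3 ∨ n % 8 = 5 ∨ n % 8 = 7 := by omega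
    rcases h6 with h6 | h6 | h6 | h6 <;> rw [pow_two, Nat.mul_mod, h6]
  omega

theorem HA.inner_of_mem (h : HA F r A) {g : GL (Fin 2) F} (hg : dg g ∈ A) : dg g ∈ Inn P2 := by
  rw [inner_iff]
  by_contra hs
  have h2 : (2 : F) ≠ 0 := by
    intro h2
    apply hs
    apply FiniteField.isSquare_of_char_two
    have : ringChar F ∣ 2 := (ringChar.spec F 2).1 (by exact_mod_cast h2)
    rcases (Nat.dvd_prime Nat.prime_two).1 this with h3 | h3
    · exact absurd h3 (CharP.char_ne_one F (ringChar F))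
    · exact h3
  apply h.bG_notMem h2
  have h3 : dg (bG h2 * g) ∈ Inn P2 := by
    rw [inner_iff, Units.val_mul, det_mul, bG_det]
    exact sq_mul (h.not_sq h2) hs
  have h4 : dg (bG h2) = dg (bG h2 * g) * (dg g)⁻¹ := by
    rw [map_mul]; group
  rw [h4]
  exact A.mul_mem (h.inn h3) (A.inv_mem hg)

theorem HA.exists_fd (h : HA F r A) (hA : ¬ A ≤ Inn P2) : ∃ τ : F ≃+* F, τ ≠ 1 ∧ fd τ ∈ A := by
  obtain ⟨x, hx, hxI⟩ := Set.not_subset.1 hA
  obtain ⟨g, σ, rfl⟩ := aut_psl_two x
  have hσ : σ ≠ 1 := by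
    rintro rfl
    apply hxI
    rw [map_one, mul_one] at hx ⊢
    exact h.inner_of_mem hx
  by_cases hs : IsSquare g.1.det
  · refine ⟨σ, hσ, ?_⟩
    have h1 := h.inn ((inner_iff g).2 hs)
    have h2 := A.mul_mem (A.inv_mem h1) hx
    simpa using h2
  · have hsq : (dg g * fd σ : MulAut P2) ^ 2 = dg (g * fGL σ g) * fd (σ ^ 2) := by
      rw [map_mul, ← fd_dg, map_pow, pow_two, pow_two]; group
    have hdet : (g * fGL σ g).1.det = g.1.det * σ (g.1.det) := by
      rw [Units.val_mul, det_mul]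
      congr 1
      exact (RingHom.map_det σ.toRingHom g.1).symm
    have hs2 : ¬ IsSquare (σ g.1.det) := by
      rintro ⟨u, hu⟩
      apply hs
      refine ⟨σ.symm u, ?_⟩
      apply σ.injective
      rw [map_mul, RingEquiv.apply_symm_apply, hu]
    have h1 : dg (g * fGL σ g) ∈ A := by
      apply h.inn
      rw [inner_iff, hdet]
      exact sq_mul hs hs2
    have h2 : fd (σ ^ 2) ∈ A := by
      have h3 := A.mul_mem (A.inv_mem h1) (A.pow_mem hx 2)
      rw [hsq, inv_mul_cancel_left] at h3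
      exact h3
    by_cases hσ2 : σ ^ 2 = 1
    · exfalso
      have : Fact (Nat.Prime 2) := ⟨Nat.prime_two⟩
      have ho : orderOf σ = 2 := orderOf_eq_prime hσ2 hσ
      obtain ⟨K, hK, hc⟩ := exists_fixed σ 2 ho
      apply hs
      by_cases h20 : (2 : F) = 0
      · exact FiniteField.isSquare_of_char_two (ringChar_two h20) _
      · exfalso
        exact h.not_sq h20 (isSquare_two_of_sq h20 hc)
    · exact ⟨σ ^ 2, hσ2, h2⟩

/-- a power of prime order -/
theorem HA.exists_fd_prime (h : HA F r A) (hA : ¬ A ≤ Inn P2) :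
    ∃ (s : ℕ) (τ : F ≃+* F), s.Prime ∧ orderOf τ = s ∧ fd τ ∈ A := by
  obtain ⟨τ, hτ, hA'⟩ := h.exists_fd hA
  have : Finite (F ≃+* F) := Finite.of_injective (fun σ : F ≃+* F => (σ : F → F)) DFunLike.coe_injective
  obtain ⟨s, hs, hd⟩ := Nat.exists_prime_and_dvd (fun h1 => hτ (orderOf_eq_one_iff.1 h1))
  refine ⟨s, τ ^ (orderOf τ / s), hs, orderOf_pow_orderOf_div (orderOf_pos τ).ne' hd, ?_⟩
  rw [map_pow]
  exact A.pow_mem hA' _

theorem conj_aut (β : MulAut P2) (y : P2) : β * MulAut.conj y * β⁻¹ = MulAut.conj (β y) := by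
  ext z
  simp [MulAut.mul_apply, MulAut.conj_apply]

/-- the transvection `[[1,a],[0,1]]` -/
def uu (a : F) : SL2 := ⟨!![1, a; 0, 1], by simp⟩

theorem uu_coe (a : F) : (uu a).1 = !![1, a; 0, 1] := rfl

theorem uu_mul (a b : F) : uu a * uu b = uu (a + b) := by
  apply Subtype.ext
  rw [val_mul, uu_coe, uu_coe, uu_coe, mul_fin_two]
  ext i j; fin_cases i <;> fin_cases j <;> simp
  ring

theorem fdS_uu (τ : F ≃+* F) (a : F) : fdS τ (uu a) = uu (τ a) := by
  apply Subtype.ext
  rw [fdS_coe, uu_coe, uu_coe]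
  ext i j; fin_cases i <;> fin_cases j <;> simp

theorem uu_ne {a : F} (ha : a ≠ 0) : (QuotientGroup.mk (uu a) : P2) ≠ 1 := by
  rw [Ne, PSL2Orders.mk_eq_one_iff]
  rintro (h | h)
  · have := congrArg (fun M : SL2 => M.1 0 1) h
    simp [uu_coe] at this
    exact ha this
  · have := congrArg (fun M : SL2 => M.1 0 1) h
    simp [uu_coe] at this
    exact ha this

/-- the prime `s` is not `2` -/
theorem HA.s_ne_two (h : HA F r A) {τ : F ≃+* F} (ho : orderOf τ = 2) (hA : fd τ ∈ A) : False := by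
  obtain ⟨K, hK, hc⟩ := exists_fixed τ 2 ho
  by_cases h20 : (2 : F) = 0
  · have hne : ∃ a : F, τ a ≠ a := by
      by_contra hcon
      push Not at hcon
      have : τ = 1 := by ext x; exact hcon x
      rw [this, orderOf_one] at ho
      omega
    obtain ⟨a, ha⟩ := hne
    have hchar : ∀ x : F, x + x = 0 := by intro x; rw [← two_mul, h20, zero_mul]
    have hb : a + τ a ≠ 0 := by
      intro h0
      apply ha
      have h1 : τ a = -a := by rw [eq_neg_iff_add_eq_zero, add_comm]; exact h0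
      have h2 : a = -a := by rw [eq_neg_iff_add_eq_zero]; exact hchar a
      rw [h1, ← h2]
    set x : MulAut P2 := MulAut.conj (QuotientGroup.mk (uu a) : P2) * fd τ with hx
    have hx2 : x ^ 2 = MulAut.conj (QuotientGroup.mk (uu (a + τ a)) : P2) := by
      have h1 : x ^ 2 = MulAut.conj (QuotientGroup.mk (uu a) : P2) *
          (fd τ * MulAut.conj (QuotientGroup.mk (uu a) : P2) * (fd τ)⁻¹) * (fd τ) ^ 2 := by
        rw [hx, pow_two, pow_two]; group
      have hτ2 : τ ^ 2 = 1 := by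
        have := pow_orderOf_eq_one τ
        rwa [ho] at this
      rw [h1, conj_aut, ← map_pow, hτ2, map_one, mul_one, ← map_mul]
      congr 1
      rw [← uu_mul, ← fdS_uu]
      rfl
    apply h.no4 (x := x)
    · exact A.mul_mem (h.inn ⟨_, rfl⟩) hA
    · rw [hx2]
      intro h1
      apply uu_ne hb
      exact conj_inj (h1.trans (map_one _).symm)
    · have h4 : x ^ 4 = (x ^ 2) ^ 2 := by rw [← pow_mul]
      rw [h4, hx2, ← map_pow]
      rw [← QuotientGroup.mk_pow, pow_two, uu_mul, hchar]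
      have : (uu (0 : F)) = 1 := by
        apply Subtype.ext
        rw [uu_coe, val_one]
        ext i j; fin_cases i <;> fin_cases j <;> simp
      rw [this]
      simp
  · exact h.not_sq h20 (isSquare_two_of_sq h20 hc)

/-- an element of `PSL(2,F)` of prime order `ℓ ≠ s` fixed by `τ` -/
theorem HA.mul_mem_orders (h : HA F r A) {τ : F ≃+* F} {s ℓ : ℕ} (hs : s.Prime) (ho : orderOf τ = s) (hA : fd τ ∈ A)
    {y : P2} (hy : orderOf y = ℓ) (hℓ : ℓ.Prime) (hne : ℓ ≠ s) (hfix : fd τ y = y) :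
    orderOf (MulAut.conj y * fd τ) = ℓ * s ∧ MulAut.conj y * fd τ ∈ A := by
  have h1 : Commute (MulAut.conj y) (fd τ) := by
    have h2 := conj_aut (fd τ) y
    rw [hfix] at h2
    have h3 : fd τ * MulAut.conj y = MulAut.conj y * fd τ := mul_inv_eq_iff_eq_mul.1 h2
    exact h3.symm
  refine ⟨?_, A.mul_mem (h.inn ⟨_, rfl⟩) hA⟩
  have h4 : orderOf (fd τ : MulAut P2) = s := by
    rw [← ho]; exact orderOf_injective _ (fd_inj le_rfl) τ
  rw [h1.orderOf_mul_eq_mul_orderOf_of_coprime, orderOf_conj', hy, h4]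
  rw [orderOf_conj', hy, h4]
  exact (Nat.coprime_primes hℓ hs).2 hne

theorem uu_zero : (uu (0 : F)) = 1 := by
  apply Subtype.ext
  rw [uu_coe, val_one]
  ext i j; fin_cases i <;> fin_cases j <;> simp

theorem exists_invol (τ : F ≃+* F) : ∃ y : P2, orderOf y = 2 ∧ fd τ y = y := by
  have : Fact (Nat.Prime 2) := ⟨Nat.prime_two⟩
  by_cases h20 : (2 : F) = 0
  · refine ⟨QuotientGroup.mk (uu 1), orderOf_eq_prime ?_ (uu_ne one_ne_zero), ?_⟩
    · rw [← QuotientGroup.mk_pow, pow_two, uu_mul]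
      have : (1 : F) + 1 = 0 := by rw [one_add_one_eq_two]; exact h20
      rw [this, uu_zero]; rfl
    · rw [fd_mk, fdS_uu, map_one]
  · let J : SL2 := ⟨!![0, 1; -1, 0], by simp⟩
    have hJ : J.1 = !![0, 1; -1, 0] := rfl
    refine ⟨QuotientGroup.mk J, orderOf_eq_prime ?_ ?_, ?_⟩
    · rw [← QuotientGroup.mk_pow, PSL2Orders.mk_eq_one_iff]
      right
      apply Subtype.ext
      rw [pow_two, val_mul, hJ, mul_fin_two]
      ext i j; fin_cases i <;> fin_cases j <;> simp
    · rw [Ne, PSL2Orders.mk_eq_one_iff]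
      rintro (h | h)
      · have := congrArg (fun M : SL2 => M.1 0 1) h
        simp [hJ] at this
      · have := congrArg (fun M : SL2 => M.1 0 1) h
        simp [hJ] at this
    · rw [fd_mk]
      congr 1
      apply Subtype.ext
      rw [fdS_coe, hJ]
      ext i j; fin_cases i <;> fin_cases j <;> simp

theorem exists_odd {τ : F ≃+* F} (K : Subfield F) (hK : ∀ x : F, x ∈ K ↔ τ x = x) {ℓ : ℕ} (hℓ : ℓ.Prime) (h2 : ℓ ≠ 2)
    (hd : ℓ ∣ Nat.card (SpecialLinearGroup (Fin 2) K)) : ∃ y : P2, orderOf y = ℓ ∧ fd τ y = y := by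
  classical
  have : Fact ℓ.Prime := ⟨hℓ⟩
  have : Finite (SpecialLinearGroup (Fin 2) K) := inferInstance
  obtain ⟨x, hx⟩ := exists_prime_orderOf_dvd_card' ℓ hd
  let ι : SpecialLinearGroup (Fin 2) K →* SL2 := SpecialLinearGroup.map K.subtype
  have hι : ∀ z : SpecialLinearGroup (Fin 2) K, (ι z).1 = z.1.map K.subtype := fun z => rfl
  have hinj : Function.Injective ι := by
    intro a b hab
    apply Subtype.ext
    ext i j
    have h3 := congrArg (fun M : SL2 => M.1 i j) hab
    simp only [hι, map_apply] at h3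
    exact h3
  refine ⟨QuotientGroup.mk (ι x), orderOf_eq_prime ?_ ?_, ?_⟩
  · rw [← QuotientGroup.mk_pow, ← map_pow, ← hx, pow_orderOf_eq_one, map_one]; rfl
  · rw [Ne, PSL2Orders.mk_eq_one_iff]
    intro h
    have h3 : ι x ^ 2 = 1 := by
      rcases h with h | h
      · rw [h, one_pow]
      · rw [h]
        apply Subtype.ext
        rw [pow_two, val_mul]
        simp
    rw [← map_pow] at h3
    have h4 : x ^ 2 = 1 := hinj (h3.trans (map_one ι).symm)
    have h5 := orderOf_dvd_of_pow_eq_one h4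
    rw [hx] at h5
    exact h2 ((Nat.prime_dvd_prime_iff_eq hℓ Nat.prime_two).1 h5)
  · rw [fd_mk]
    congr 1
    apply Subtype.ext
    rw [fdS_coe]
    ext i j
    rw [hι, map_apply, map_apply]
    exact (hK _).1 (x.1 i j).2

/-- **Q4, inside the automorphism group** -/
theorem HA.le_inn (h : HA F r A) : A ≤ Inn P2 := by
  classical
  by_contra hA
  obtain ⟨s, τ, hs, ho, hτ⟩ := h.exists_fd_prime hA
  have hs2 : s ≠ 2 := by
    rintro rfl
    exact h.s_ne_two ho hτ
  have hr := h.rp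
  have hr2 := h.r2
  -- `s = r`
  obtain ⟨y, hy, hfix⟩ := exists_invol τ
  obtain ⟨h1, h2⟩ := h.mul_mem_orders hs ho hτ hy Nat.prime_two hs2.symm hfix
  have hsr : s = r := by
    have h3 := h.even _ h2 (by rw [h1]; exact dvd_mul_right 2 s)
    rw [h1] at h3
    have := hs.two_le
    omega
  subst hsr
  obtain ⟨K, hK, hc⟩ := exists_fixed τ s ho
  have hodd : ∀ ℓ : ℕ, ℓ.Prime → ℓ ≠ 2 → ℓ ∣ Nat.card (SpecialLinearGroup (Fin 2) K) → ℓ = s := by
    intro ℓ hℓ hℓ2 hd
    by_contra hne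
    obtain ⟨y, hy, hfix⟩ := exists_odd K hK hℓ hℓ2 hd
    obtain ⟨h1, h2⟩ := h.mul_mem_orders hs ho hτ hy hℓ hne hfix
    have h3 := h.rr _ h2 (by rw [h1]; exact dvd_mul_left s ℓ)
    rw [h1] at h3
    rcases h3 with h3 | h3
    · have h4 : ℓ * s = 1 * s := by rw [h3, one_mul]
      have := Nat.eq_of_mul_eq_mul_right hs.pos h4
      exact hℓ.one_lt.ne' this
    · exact hℓ2 (Nat.eq_of_mul_eq_mul_right hs.pos h3)
  rw [ClSL2.card_SL2 (F := K) rfl] at hodd
  have hK2 : 2 ≤ Fintype.card K := Fintype.one_lt_card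
  have hfac : Fintype.card K ^ 2 - 1 = (Fintype.card K - 1) * (Fintype.card K + 1) := by
    obtain ⟨c, hc⟩ := Nat.exists_eq_add_of_le hK2
    rw [hc]
    have e1 : 2 + c - 1 = 1 + c := by omega
    rw [e1]
    have e2 : (2 + c) ^ 2 = (1 + c) * (2 + c + 1) + 1 := by ring
    omega
  rw [hfac] at hodd
  rw [Nat.card_eq_fintype_card, Nat.card_eq_fintype_card] at hc
  set q := Fintype.card K with hq
  obtain ⟨p, hchar⟩ := CharP.exists F
  have hp : p.Prime := (CharP.char_is_prime_or_zero F p).resolve_right (CharP.char_ne_zero_of_finite F p)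
  have : Fact p.Prime := ⟨hp⟩
  have : CharP K p := inferInstance
  obtain ⟨n, _, hqn⟩ := FiniteField.card K p
  have hpq : p ∣ q := by rw [hq, hqn]; exact dvd_pow_self p n.ne_zero
  have hspec := PSL2Orders.spectrum (F := F) p
  have hnot : ∀ m : ℕ, m ∈ Set.range (orderOf : P2 → ℕ) → (2 ∣ m → m = 2 ∨ m = 2 * s) ∧ (s ∣ m → m = s ∨ m = 2 * s) := by
    rintro m ⟨y, rfl⟩
    rw [← orderOf_conj' y]
    exact ⟨h.even _ (h.inn ⟨y, rfl⟩), h.rr _ (h.inn ⟨y, rfl⟩)⟩
  by_cases hp2 : p = 2
  · subst hp2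
    have hqe : q % 2 = 0 := Nat.mod_eq_zero_of_dvd hpq
    -- a prime divisor of `q + 1`
    obtain ⟨ℓ, hℓ, hd⟩ := Nat.exists_prime_and_dvd (show q + 1 ≠ 1 by omega)
    have hℓ2 : ℓ ≠ 2 := by rintro rfl; omega
    have hℓs := hodd ℓ hℓ hℓ2 (dvd_mul_of_dvd_right (dvd_mul_of_dvd_right hd _) _)
    by_cases hq2 : q = 2
    · rw [hq2, hℓs] at hd
      have hs3 : s = 3 := (Nat.prime_dvd_prime_iff_eq hs Nat.prime_three).1 hd
      rw [hs3, hq2] at hc
      have h9 : 9 ∈ Set.range (orderOf : P2 → ℕ) := by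
        rw [hspec, hc]
        right; right; norm_num
      have := (hnot 9 h9).2 (by rw [hs3]; norm_num)
      omega
    · obtain ⟨ℓ', hℓ', hd'⟩ := Nat.exists_prime_and_dvd (show q - 1 ≠ 1 by omega)
      have hℓ2' : ℓ' ≠ 2 := by rintro rfl; omega
      have hℓs' := hodd ℓ' hℓ' hℓ2' (dvd_mul_of_dvd_right (dvd_mul_of_dvd_left hd' _) _)
      rw [hℓs] at hd
      rw [hℓs'] at hd'
      have h5 : s ∣ (q + 1) - (q - 1) := Nat.dvd_sub hd hd'
      have h6 : q + 1 - (q - 1) = 2 := by omega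
      rw [h6] at h5
      exact hs2 ((Nat.prime_dvd_prime_iff_eq hs Nat.prime_two).1 h5)
  · have hps : p = s := hodd p hp hp2 (dvd_mul_of_dvd_left hpq _)
    subst hps
    have hqo : q % 2 = 1 := by
      rw [hq, hqn, ← Nat.odd_iff]
      exact (hp.odd_of_ne_two hp2).pow
    have hpow1 : ∀ {d : ℕ}, d.Prime → d ∣ q - 1 → d = 2 := by
      intro d hd hdd
      by_contra h2
      have h3 := hodd d hd h2 (dvd_mul_of_dvd_right (dvd_mul_of_dvd_left hdd _) _)
      rw [h3] at hdd
      have h4 : p ∣ q - (q - 1) := Nat.dvd_sub hpq hdd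
      rw [show q - (q - 1) = 1 by omega] at h4
      exact hp.one_lt.ne' (Nat.dvd_one.1 h4)
    have hpow2 : ∀ {d : ℕ}, d.Prime → d ∣ q + 1 → d = 2 := by
      intro d hd hdd
      by_contra h2
      have h3 := hodd d hd h2 (dvd_mul_of_dvd_right (dvd_mul_of_dvd_right hdd _) _)
      rw [h3] at hdd
      have h4 : p ∣ q + 1 - q := Nat.dvd_sub hdd hpq
      rw [show q + 1 - q = 1 by omega] at h4
      exact hp.one_lt.ne' (Nat.dvd_one.1 h4)
    have e1 := Nat.eq_prime_pow_of_unique_prime_dvd (n := q - 1) (p := 2) (by omega) hpow1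
    have e2 := Nat.eq_prime_pow_of_unique_prime_dvd (n := q + 1) (p := 2) (by omega) hpow2
    have hq3 : q = 3 := by
      generalize (q - 1).primeFactorsList.length = a at e1
      generalize (q + 1).primeFactorsList.length = b at e2
      rcases a with _ | _ | a
      · simp at e1; omega
      · simp at e1; omega
      · exfalso
        rw [pow_succ, pow_succ] at e1
        rcases b with _ | _ | b
        · simp at e2; omega
        · simp at e2; omega
        · rw [pow_succ, pow_succ] at e2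
          omega
    have hp3 : p = 3 := by
      rw [hq3] at hpq
      exact (Nat.prime_dvd_prime_iff_eq hp Nat.prime_three).1 hpq
    rw [hp3, hq3] at hc
    have h14 : 14 ∈ Set.range (orderOf : P2 → ℕ) := by
      rw [hspec, hc]
      right; right; norm_num
    have := (hnot 14 h14).1 (by norm_num)
    omega

/-- **Piece Q4 of S4371** (hypothesis `HypR G r` spelled out) -/
theorem q4 {G : Type*} [Group G] [Finite G] {r : ℕ} (rp : r.Prime) (r2 : r ≠ 2)
    (even : ∀ x : G, 2 ∣ orderOf x → orderOf x = 2 ∨ orderOf x = 2 * r)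
    (rr : ∀ x : G, r ∣ orderOf x → orderOf x = r ∨ orderOf x = 2 * r)
    (L : Subgroup G) (hL : L.Normal) (e : L ≃* ProjectiveSpecialLinearGroup (Fin 2) F)
    (hC : Subgroup.centralizer (L : Set G) = ⊥) : L = ⊤ := by
  let κ : G →* MulAut P2 := (MulAut.congr e).toMonoidHom.comp (MulAut.conjNormal : G →* MulAut L)
  have hκ : ∀ (g : G) (y : P2), κ g y = e (MulAut.conjNormal g (e.symm y)) := fun g y => rfl
  have hinj : Function.Injective κ := by
    rw [injective_iff_map_eq_one]
    intro g hg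
    have : g ∈ Subgroup.centralizer (L : Set G) := by
      rw [Subgroup.mem_centralizer_iff]
      intro l hl
      have h1 := hκ g (e ⟨l, hl⟩)
      rw [hg, e.symm_apply_apply, MulAut.one_apply] at h1
      have h2 := congrArg (Subtype.val) (e.injective h1)
      rw [MulAut.conjNormal_apply] at h2
      have h3 : l = g * l * g⁻¹ := h2
      calc l * g = g * l * g⁻¹ * g := by rw [← h3]
        _ = g * l := by group
    rw [hC] at this
    exact this
  have hl : ∀ l : L, κ l = MulAut.conj (e l) := by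
    intro l
    ext y
    rw [hκ, MulAut.conj_apply]
    have h1 : MulAut.conjNormal (l : G) (e.symm y) = l * e.symm y * l⁻¹ := by
      apply Subtype.ext
      rw [MulAut.conjNormal_apply]; rfl
    rw [h1, map_mul, map_mul, e.apply_symm_apply, map_inv]
  have hA : HA F r κ.range := by
    refine ⟨rp, r2, ?_, ?_, ?_⟩
    · rintro _ ⟨y, rfl⟩
      exact ⟨(e.symm y : L), by rw [hl, e.apply_symm_apply]⟩
    · rintro _ ⟨g, rfl⟩
      rw [orderOf_injective κ hinj g]
      exact even g
    · rintro _ ⟨g, rfl⟩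
      rw [orderOf_injective κ hinj g]
      exact rr g
  have hle := hA.le_inn
  rw [eq_top_iff]
  intro g _
  obtain ⟨y, hy⟩ := hle ⟨g, rfl⟩
  have h1 : κ g = κ (e.symm y : L) := by rw [← hy, hl, e.apply_symm_apply]
  rw [hinj h1]
  exact (e.symm y).2

end Cfsg.Agent.Lib.H15TQ4
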