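import Cfsg.Agent.Lib.BlockKnorr2
import Cfsg.Agent.Lib.BlockFirst
import Cfsg.Agent.Lib.BlockCover2

/-!
# Harris–Knörr: covering blocks and block induction (helper16)
-/

set_option autoImplicit false
set_option linter.all false

namespace Cfsg.Agent.Lib.H16HK

open Cfsg Cfsg.Agent.Lib.BlockRing Cfsg.Agent.Lib.BlockGA Cfsg.Agent.Lib.BlockIdem Cfsg.Agent.Lib.BlockDefect
  Cfsg.Agent.Lib.BlockCover Cfsg.Agent.Lib.BlockInv Cfsg.Agent.Lib.BlockFong
  Cfsg.Agent.Lib.BlockTransfer Cfsg.Agent.Lib.BlockHom Cfsg.Agent.Lib.BlockInd Cfsg.Agent.Lib.BlockFirst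
open Cfsg.Agent.Lib.BlockRes (resH coeff_resH brH coeff_brH)
open Cfsg.Agent.Lib.CharBasic
open Cfsg.Agent.Lib.Clifford
open scoped ComplexConjugate

universe u

section tr

variable {M : Ideal AlgInt}

/-- transport of block induction along compatible isomorphisms -/
theorem isInducedBlock_tr {G₁ G₂ : Type u} [Group G₁] [Group G₂] (α : G₁ ≃* G₂) {H₁ : Subgroup G₁}
    {H₂ : Subgroup G₂} (β : H₁ ≃* H₂) (hβ : ∀ h : H₁, ((β h : H₂) : G₂) = α (h : G₁))
    {b : Set (IrrCharacter H₂)} {B : Set (IrrCharacter G₂)} (h : IsInducedBlock M H₂ b B) :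
    IsInducedBlock M H₁ (trB β b) (trB α B) := by
  refine ⟨isPBlock_tr h.1, isPBlock_tr h.2.1, ?_⟩
  rintro _ ⟨ξ, hξ, rfl⟩ _ ⟨χ, hχ, rfl⟩ g
  have h1 := h.2.2 ξ hξ χ hχ (α g)
  rw [coe_trI, coe_trI, centralChar_comp α]
  have h2 : inducedCentralChar H₁ (fun h => (ξ : H₂ → ℂ) (β h)) g =
      inducedCentralChar H₂ (ξ : H₂ → ℂ) (α g) := by
    unfold inducedCentralChar
    refine finsum_mem_eq_of_bijOn β ⟨?_, β.injective.injOn, ?_⟩ ?_
    · intro x hx
      show IsConj (α g) ((β x : H₂) : G₂)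
      rw [hβ]
      obtain ⟨y, hy⟩ := isConj_iff.1 (show IsConj g (x : G₁) from hx)
      exact isConj_iff.2 ⟨α y, by rw [← hy]; simp⟩
    · intro y hy
      refine ⟨β.symm y, ?_, β.apply_symm_apply y⟩
      show IsConj g ((β.symm y : H₁) : G₁)
      have h3 : ((y : H₂) : G₂) = α ((β.symm y : H₁) : G₁) := by rw [← hβ, β.apply_symm_apply]
      obtain ⟨w, hw⟩ := isConj_iff.1 (show IsConj (α g) (y : G₂) from hy)
      rw [h3] at hw
      refine isConj_iff.2 ⟨α.symm w, ?_⟩
      apply α.injective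
      rw [← hw]
      simp
    · intro x _
      simp only [map_one]
  rw [h2]
  exact h1

end tr

section cover

variable {G : Type u} [Group G] [Fintype G] {p : ℕ} {M : Ideal AlgInt}
variable {N : Subgroup G} [hN : N.Normal] [Fintype N]

theorem covers_induced (hM : IsPModular p M) {Q H L : Subgroup G} (hQ : IsPGroup p Q) (hQN : Q ≤ N)
    (hQH : Q ≤ H) (hHQ : H ≤ Subgroup.normalizer (Q : Set G))
    (hLH : L ≤ H) (hLN : L ≤ N) (hL : H ⊓ N ≤ L) [(L.subgroupOf H).Normal] [Fintype (L.subgroupOf H)]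
    {d : Set (IrrCharacter N)} {e : Set (IrrCharacter L)}
    (hed : IsInducedBlock M (L.subgroupOf N) (trB (subE hLN) e) d)
    {c : Set (IrrCharacter H)} (hc : IsPBlock M c) (hce : Covers c (trB (subE hLH) e))
    {B : Set (IrrCharacter G)} (hcB : IsInducedBlock M H c B) : Covers B d := by
  classical
  haveI := isPrime hM
  obtain ⟨χ, hχ⟩ := isPBlock_nonempty hcB.2.1
  obtain ⟨θ, hθ⟩ := isPBlock_nonempty hed.2.1
  obtain ⟨ψ, hψ⟩ := isPBlock_nonempty hc
  have heP : IsPBlock M e := isPBlock_tr_iff.1 hed.1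
  obtain ⟨ξ, hξ⟩ := isPBlock_nonempty heP
  haveI := Fintype.ofFinite (ConjClasses H)
  have key : ∀ n : N, MemLocalIdeal M
      (centralChar (χ : G → ℂ) (n : G) - inducedCentralChar N (θ : N → ℂ) (n : G)) := by
    intro n
    have hzc := classSum_mem_center (n : G)
    have hzl := locA_classSum (M := M) (n : G)
    have h1 := induced_brF hM hQ hQH hHQ hcB hψ hχ hzc hzl
    rw [brF_apply, omega_classSum χ.2.isClassFunction] at h1
    have h2 : MemLocalIdeal M (omega (ψ : H → ℂ) (brH Q H (classSum (n : G))) -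
        omega (trI (subE hLH) ξ : L.subgroupOf H → ℂ) (resH (L.subgroupOf H) (brH Q H (classSum (n : G))))) := by
      apply idl_omega_sub_of_support
      · intro l
        exact passman_mp hc (isPBlock_tr_iff.2 heP) hce hψ (trI_mem_trB.2 hξ) l
      · exact BlockRes.brH_center hHQ hzc
      · exact BlockRes.locA_brH hzl
      · intro g hg
        rw [coeff_brH]
        split_ifs with h
        · apply classSum_support n.2
          intro h3
          exact hg (hL ⟨g.2, h3⟩)
        · rfl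
    have hQ' : IsPGroup p (Q.subgroupOf N) := hQ.of_equiv (Subgroup.subgroupOfEquivOfLe hQN).symm
    have hQL : Q.subgroupOf N ≤ L.subgroupOf N := fun x hx => hL ⟨hQH hx, x.2⟩
    have hLQ : L.subgroupOf N ≤ Subgroup.normalizer ((Q.subgroupOf N : Subgroup N) : Set N) := by
      intro x hx
      rw [Subgroup.mem_normalizer_iff]
      intro y
      exact Subgroup.mem_normalizer_iff.1 (hHQ (hLH hx)) (y : G)
    have h3 := induced_brF hM hQ' hQL hLQ hed (trI_mem_trB.2 hξ) hθ (BlockRes.resH_center hzc)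
      (BlockRes.locA_resH hzl)
    rw [brF_apply, BlockRes.omega_resH_classSum] at h3
    have h4 : omega (trI (subE hLH) ξ : L.subgroupOf H → ℂ)
        (resH (L.subgroupOf H) (brH Q H (classSum (n : G)))) =
        omega (trI (subE hLN) ξ : L.subgroupOf N → ℂ)
          (brH (Q.subgroupOf N) (L.subgroupOf N) (resH N (classSum (n : G)))) := by
      haveI := Fintype.ofFinite L
      haveI := Fintype.ofFinite (L.subgroupOf N)
      rw [omega, omega, coe_trI, coe_trI]
      simp only [map_one]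
      rw [lin_apply, lin_apply]
      congr 1
      rw [← Equiv.sum_comp (subE hLH).symm.toEquiv, ← Equiv.sum_comp (subE hLN).symm.toEquiv]
      refine Finset.sum_congr rfl fun x _ => ?_
      have h5 : ((subE hLH).symm.toEquiv x : L.subgroupOf H) = (subE hLH).symm x := rfl
      have h6 : ((subE hLN).symm.toEquiv x : L.subgroupOf N) = (subE hLN).symm x := rfl
      rw [h5, h6, MulEquiv.apply_symm_apply, MulEquiv.apply_symm_apply]
      congr 1
      rw [coeff_resH, coeff_brH, coeff_brH, coeff_resH]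
      have h7 : ((((subE hLH).symm x : L.subgroupOf H) : H) : G) = x := rfl
      have h8 : ((((subE hLN).symm x : L.subgroupOf N) : N) : G) = x := rfl
      rw [h7, h8]
      have h9 : (((subE hLN).symm x : L.subgroupOf N) : N) ∈ Subgroup.centralizer ((Q.subgroupOf N : Subgroup N) : Set N) ↔
          (x : G) ∈ Subgroup.centralizer (Q : Set G) := by
        rw [Subgroup.mem_centralizer_iff, Subgroup.mem_centralizer_iff]
        constructor
        · intro h g hg
          exact congrArg Subtype.val (h ⟨g, hQN hg⟩ hg)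
        · intro h g hg
          exact Subtype.ext (h g hg)
      by_cases h10 : (x : G) ∈ Subgroup.centralizer (Q : Set G)
      · rw [if_pos h10, if_pos (h9.2 h10)]
      · rw [if_neg h10, if_neg (fun h => h10 (h9.1 h))]
    rw [h4] at h2
    exact idl_sub_trans (idl_sub_symm h1) (idl_sub_trans h2 h3)
  obtain ⟨θ', hθ', h'⟩ := passman_mpr hed.2.1 hθ key
  exact ⟨χ, hχ, θ', hθ', h'⟩

end cover

section first

variable {G : Type u} [Group G] [Finite G] {p : ℕ} {M : Ideal AlgInt}

omit [Finite G] in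
theorem normalizer_subgroupOf {D H : Subgroup G} (hDH : D ≤ H) :
    (Subgroup.normalizer (D : Set G)).subgroupOf H =
      Subgroup.normalizer ((D.subgroupOf H : Subgroup H) : Set H) := by
  ext x
  rw [Subgroup.mem_subgroupOf, Subgroup.mem_normalizer_iff, Subgroup.mem_normalizer_iff]
  constructor
  · intro h y
    exact h y
  · intro h y
    constructor
    · intro hy
      exact (h ⟨y, hDH hy⟩).1 hy
    · intro hy
      have hyH : y ∈ H := by
        have := H.mul_mem (H.mul_mem (H.inv_mem x.2) (hDH hy)) x.2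
        simpa [mul_assoc] using this
      exact (h ⟨y, hyH⟩).2 hy

theorem first_main_defect' (hM : IsPModular p M) {D K : Subgroup G} (hK : K = Subgroup.normalizer (D : Set G))
    (hDp : IsPGroup p D) {b : Set (IrrCharacter K)} {B : Set (IrrCharacter G)}
    (hind : IsInducedBlock M K b B) (hD : IsDefectGroup p M b (D.subgroupOf K)) : IsDefectGroup p M B D := by
  subst hK
  exact first_main_defect hM hDp hind hD

theorem first_main_unique' (hM : IsPModular p M) {D K : Subgroup G} (hK : K = Subgroup.normalizer (D : Set G))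
    (hDp : IsPGroup p D) {b b' : Set (IrrCharacter K)} {B : Set (IrrCharacter G)}
    (hind : IsInducedBlock M K b B) (hD : IsDefectGroup p M b (D.subgroupOf K))
    (hind' : IsInducedBlock M K b' B) (hD' : IsDefectGroup p M b' (D.subgroupOf K)) : b = b' := by
  subst hK
  exact first_main_unique hM hDp hind hD hind' hD'

omit [Finite G] in
theorem map_subgroupOf_subgroupOf {D K H : Subgroup G} (hKH : K ≤ H) :
    (((D.subgroupOf H).subgroupOf (K.subgroupOf H))).map (subE hKH).toMonoidHom = D.subgroupOf K := by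
  ext x
  rw [Subgroup.mem_map]
  constructor
  · rintro ⟨y, hy, rfl⟩
    exact hy
  · intro hx
    refine ⟨(subE hKH).symm x, hx, ?_⟩
    exact (subE hKH).apply_symm_apply x

/-- going down from `H` to `N_G(D) ≤ H` -/
theorem descend (hM : IsPModular p M) {D H : Subgroup G} (hDp : IsPGroup p D) (hDH : D ≤ H)
    (hNH : Subgroup.normalizer (D : Set G) ≤ H) {c : Set (IrrCharacter H)} (hc : IsPBlock M c)
    (hcD : IsDefectGroup p M c (D.subgroupOf H)) :
    ∃ b : Set (IrrCharacter (Subgroup.normalizer (D : Set G))),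
      IsInducedBlock M ((Subgroup.normalizer (D : Set G)).subgroupOf H) (trB (subE hNH) b) c ∧
      IsDefectGroup p M b (D.subgroupOf (Subgroup.normalizer (D : Set G))) := by
  haveI := isPrime hM
  have hD' : IsPGroup p (D.subgroupOf H) := hDp.of_equiv (Subgroup.subgroupOfEquivOfLe hDH).symm
  have hK := normalizer_subgroupOf hDH
  have hPH : D.subgroupOf H ≤ (Subgroup.normalizer (D : Set G)).subgroupOf H := by
    rw [hK]; exact Subgroup.le_normalizer
  have hHN : (Subgroup.normalizer (D : Set G)).subgroupOf H ≤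
      Subgroup.normalizer ((D.subgroupOf H : Subgroup H) : Set H) := hK.le
  have hCH : Subgroup.centralizer ((D.subgroupOf H : Subgroup H) : Set H) ≤
      (Subgroup.normalizer (D : Set G)).subgroupOf H := by
    rw [hK]; exact Subgroup.centralizer_le_normalizer _
  obtain ⟨h, hh, hhD⟩ := isDefectGroup_iff.1 hcD
  have hhC : h ∈ Subgroup.centralizer ((D.subgroupOf H : Subgroup H) : Set H) := by
    rw [Subgroup.mem_centralizer_iff]
    intro x hx
    exact Subgroup.mem_centralizer_singleton_iff.1 (sylIn_le hhD hx)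
  obtain ⟨b', hb'⟩ := exists_inducing_block hM hD' hPH hCH hHN hc hhC hh.2.1
  have h1 := defectGroup_of_induced hM hPH hHN hb' hcD
  refine ⟨trB (subE hNH).symm b', ?_, ?_⟩
  · rw [trB_symm_trB]; exact hb'
  · rw [← trB_symm_trB (subE hNH) b', isDefectGroup_tr_iff, map_subgroupOf_subgroupOf] at h1
    exact h1

/-- going up from `N_G(D)` to `H ≥ N_G(D)` -/
theorem ascend (hM : IsPModular p M) {D H : Subgroup G} (hDp : IsPGroup p D) (hDH : D ≤ H)
    (hNH : Subgroup.normalizer (D : Set G) ≤ H) {b : Set (IrrCharacter (Subgroup.normalizer (D : Set G)))}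
    (hb : IsPBlock M b) (hbD : IsDefectGroup p M b (D.subgroupOf (Subgroup.normalizer (D : Set G)))) :
    ∃ c : Set (IrrCharacter H),
      IsInducedBlock M ((Subgroup.normalizer (D : Set G)).subgroupOf H) (trB (subE hNH) b) c ∧
      IsDefectGroup p M c (D.subgroupOf H) := by
  haveI := isPrime hM
  have hD' : IsPGroup p (D.subgroupOf H) := hDp.of_equiv (Subgroup.subgroupOfEquivOfLe hDH).symm
  have hK := normalizer_subgroupOf hDH
  have hPH : D.subgroupOf H ≤ (Subgroup.normalizer (D : Set G)).subgroupOf H := by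
    rw [hK]; exact Subgroup.le_normalizer
  have hHN : (Subgroup.normalizer (D : Set G)).subgroupOf H ≤
      Subgroup.normalizer ((D.subgroupOf H : Subgroup H) : Set H) := hK.le
  have hCH : Subgroup.centralizer ((D.subgroupOf H : Subgroup H) : Set H) ≤
      (Subgroup.normalizer (D : Set G)).subgroupOf H := by
    rw [hK]; exact Subgroup.centralizer_le_normalizer _
  obtain ⟨c, hc⟩ := inducedBlockDefined hM hD' hPH hCH hHN (isPBlock_tr_iff (e := subE hNH).2 hb)
  refine ⟨c, hc, first_main_defect' hM hK hD' hc ?_⟩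
  rw [isDefectGroup_tr_iff, map_subgroupOf_subgroupOf]
  exact hbD

theorem defect_of (hM : IsPModular p M) {D H : Subgroup G} (hDp : IsPGroup p D) (hDH : D ≤ H)
    (hNH : Subgroup.normalizer (D : Set G) ≤ H) {c : Set (IrrCharacter H)} {B : Set (IrrCharacter G)}
    (hcB : IsInducedBlock M H c B) (hcD : IsDefectGroup p M c (D.subgroupOf H)) : IsDefectGroup p M B D := by
  haveI := isPrime hM
  obtain ⟨b, h1, h2⟩ := descend hM hDp hDH hNH hcB.1 hcD
  exact first_main_defect hM hDp (isInducedBlock_trans hNH h1 hcB) h2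

theorem first_unique (hM : IsPModular p M) {D H : Subgroup G} (hDp : IsPGroup p D) (hDH : D ≤ H)
    (hNH : Subgroup.normalizer (D : Set G) ≤ H) {c c' : Set (IrrCharacter H)} {B : Set (IrrCharacter G)}
    (hcB : IsInducedBlock M H c B) (hcD : IsDefectGroup p M c (D.subgroupOf H))
    (hcB' : IsInducedBlock M H c' B) (hcD' : IsDefectGroup p M c' (D.subgroupOf H)) : c = c' := by
  haveI := isPrime hM
  obtain ⟨b, h1, h2⟩ := descend hM hDp hDH hNH hcB.1 hcD
  obtain ⟨b', h1', h2'⟩ := descend hM hDp hDH hNH hcB'.1 hcD'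
  have h3 := first_main_unique hM hDp (isInducedBlock_trans hNH h1 hcB) h2 (isInducedBlock_trans hNH h1' hcB') h2'
  subst h3
  exact induced_unique h1 h1'

theorem first_exists (hM : IsPModular p M) {D H : Subgroup G} (hDp : IsPGroup p D) 
    (hNH : Subgroup.normalizer (D : Set G) ≤ H)
    (hdef : ∀ c : Set (IrrCharacter H), IsPBlock M c → InducedBlockDefined M H c)
    {B : Set (IrrCharacter G)} (hB : IsPBlock M B) (hBD : IsDefectGroup p M B D) :
    ∃ c : Set (IrrCharacter H), IsInducedBlock M H c B ∧ IsDefectGroup p M c (D.subgroupOf H) := by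
  haveI := isPrime hM
  have hDN : D ≤ Subgroup.normalizer (D : Set G) := Subgroup.le_normalizer
  obtain ⟨h, hh, hhD⟩ := isDefectGroup_iff.1 hBD
  have hhC : h ∈ Subgroup.centralizer (D : Set G) := by
    rw [Subgroup.mem_centralizer_iff]
    intro x hx
    exact Subgroup.mem_centralizer_singleton_iff.1 (sylIn_le hhD hx)
  obtain ⟨b, hb⟩ := exists_inducing_block hM hDp hDN (Subgroup.centralizer_le_normalizer _) le_rfl hB hhC hh.2.1
  have h1 := defectGroup_of_induced hM hDN le_rfl hb hBD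
  obtain ⟨c, hc, hcD⟩ := ascend hM hDp (hDN.trans hNH) hNH hb.1 h1
  obtain ⟨B', hB'⟩ := hdef c hc.2.1
  have h2 := isInducedBlock_trans hNH hc hB'
  have h3 := induced_unique hb h2
  subst h3
  exact ⟨c, hB', hcD⟩

end first

section hk

open Cfsg.Agent.Lib.BlockKnorr

variable {G : Type u} [Group G] [Fintype G] {p : ℕ} {M : Ideal AlgInt}
variable {N : Subgroup G} [hN : N.Normal] [Fintype N]

omit [Fintype G] [Fintype N] in
theorem map_conj_inf (D : Subgroup G) (x : G) :
    (D.map (MulAut.conj x).toMonoidHom) ⊓ N = (D ⊓ N).map (MulAut.conj x).toMonoidHom := by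
  ext y
  rw [Subgroup.mem_inf, BlockDefect.mem_map_conj, BlockDefect.mem_map_conj, Subgroup.mem_inf]
  refine and_congr_right fun _ => ?_
  constructor
  · intro h
    have := hN.conj_mem _ h x⁻¹
    simpa using this
  · intro h
    have := hN.conj_mem _ h x
    simpa [mul_assoc] using this

omit [Fintype G] [Fintype N] in
theorem normalizer_le_of_inf {D Q : Subgroup G} (h : D ⊓ N = Q) :
    Subgroup.normalizer (D : Set G) ≤ Subgroup.normalizer (Q : Set G) := by
  intro x hx
  rw [Subgroup.mem_normalizer_iff] at hx ⊢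
  intro y
  rw [← h, Subgroup.mem_inf, Subgroup.mem_inf, hx y]
  refine and_congr_right fun _ => ?_
  constructor
  · intro h'
    exact hN.conj_mem _ h' x
  · intro h'
    have := hN.conj_mem _ h' x⁻¹
    simpa [mul_assoc] using this

omit [Fintype G] in
theorem mem_normalizer_of_map_conj {Q : Subgroup G} [Finite G] {x : G} (h : Q.map (MulAut.conj x).toMonoidHom = Q) :
    x ∈ Subgroup.normalizer (Q : Set G) := by
  rw [Subgroup.mem_normalizer_iff]
  intro y
  constructor
  · intro hy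
    rw [← h, BlockDefect.mem_map_conj]
    simpa [mul_assoc] using hy
  · intro hy
    rw [← h, BlockDefect.mem_map_conj] at hy
    simpa [mul_assoc] using hy

omit [Fintype G] in
theorem map_conj_of_mem_normalizer {Q : Subgroup G} {x : G} (hx : x ∈ Subgroup.normalizer (Q : Set G)) :
    Q.map (MulAut.conj x).toMonoidHom = Q := by
  ext y
  rw [BlockDefect.mem_map_conj]
  have := (Subgroup.mem_normalizer_iff.1 (Subgroup.inv_mem _ hx)) y
  rw [inv_inv] at this
  exact this.symm

/-- a defect group `D` of `B` (covering `d` with defect group `Q`) with `D ∩ N = Q` -/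
theorem exists_defect_inf (hM : IsPModular p M) {Q : Subgroup G} (hQN : Q ≤ N) {d : Set (IrrCharacter N)}
    (hd : IsPBlock M d) (hdQ : IsDefectGroup p M d (Q.subgroupOf N)) {B : Set (IrrCharacter G)}
    (hB : IsPBlock M B) (hcov : Covers B d) : ∃ D : Subgroup G, IsDefectGroup p M B D ∧ D ⊓ N = Q := by
  haveI := isPrime hM
  obtain ⟨P, hP, -, hPN⟩ := knorr hM hd (stab_stabT (G := G) hd) hB hcov
  obtain ⟨x, hx⟩ := defectGroup_conj hM hd hPN hdQ
  refine ⟨P.map (MulAut.conj (x : G)).toMonoidHom, defectGroup_map_conj hP x, ?_⟩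
  rw [map_conj_inf]
  ext y
  rw [BlockDefect.mem_map_conj]
  constructor
  · intro hy
    have h1 : y ∈ N := by
      have := hN.conj_mem _ hy.2 (x : G)
      simpa [mul_assoc] using this
    have h2 : (⟨y, h1⟩ : N) ∈ Q.subgroupOf N := by
      rw [hx, BlockDefect.mem_map_conj]
      exact hy
    exact h2
  · intro hy
    have h2 : (⟨y, hQN hy⟩ : N) ∈ Q.subgroupOf N := hy
    rw [hx, BlockDefect.mem_map_conj] at h2
    exact h2

/-- the same when the defect group `Q` is normal in `H`, and inside the group `H` -/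
theorem exists_defect_H (hM : IsPModular p M) {Q H L : Subgroup G} (hQN : Q ≤ N) (hQH : Q ≤ H)
    (hHQ : H ≤ Subgroup.normalizer (Q : Set G))
    (hLH : L ≤ H) (hLN : L ≤ N) (hL : H ⊓ N ≤ L) [(L.subgroupOf H).Normal] [Fintype (L.subgroupOf H)]
    [Fintype H]
    {e : Set (IrrCharacter L)} (he : IsPBlock M e) (heQ : IsDefectGroup p M e (Q.subgroupOf L))
    {c : Set (IrrCharacter H)} (hc : IsPBlock M c) (hce : Covers c (trB (subE hLH) e)) :
    ∃ D : Subgroup G, D ≤ H ∧ IsDefectGroup p M c (D.subgroupOf H) ∧ D ⊓ N = Q := by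
  have h1 : IsDefectGroup p M (trB (subE hLH) e) ((Q.subgroupOf H).subgroupOf (L.subgroupOf H)) := by
    rw [isDefectGroup_tr_iff, map_subgroupOf_subgroupOf]
    exact heQ
  have hQL : Q.subgroupOf H ≤ L.subgroupOf H := fun x hx => hL ⟨x.2, hQN hx⟩
  obtain ⟨D, hD, hDQ⟩ := exists_defect_inf (G := H) (N := L.subgroupOf H) hM hQL (isPBlock_tr_iff.2 he) h1 hc hce
  refine ⟨D.map H.subtype, Subgroup.map_subtype_le _, ?_, ?_⟩
  · have h2 : (D.map H.subtype).subgroupOf H = D := by
      rw [Subgroup.subgroupOf, Subgroup.comap_map_eq_self_of_injective H.subtype_injective]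
    rw [h2]
    exact hD
  · ext y
    rw [Subgroup.mem_inf]
    constructor
    · rintro ⟨⟨z, hz, rfl⟩, h3⟩
      have h4 : z ∈ D ⊓ L.subgroupOf H := ⟨hz, hL ⟨z.2, h3⟩⟩
      rw [hDQ] at h4
      exact h4
    · intro hy
      have h4 : (⟨y, hQH hy⟩ : H) ∈ Q.subgroupOf H := hy
      rw [← hDQ] at h4
      exact ⟨⟨⟨y, hQH hy⟩, h4.1, rfl⟩, hQN hy⟩

/-- uniqueness in the Harris–Knörr theorem -/
theorem hk_unique (hM : IsPModular p M) {Q H L : Subgroup G} (hQN : Q ≤ N) (hH : H = Subgroup.normalizer (Q : Set G))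
    (hLH : L ≤ H) (hLN : L ≤ N) (hL : H ⊓ N ≤ L) [(L.subgroupOf H).Normal] [Fintype (L.subgroupOf H)]
    [Fintype H]
    {e : Set (IrrCharacter L)} (he : IsPBlock M e) (heQ : IsDefectGroup p M e (Q.subgroupOf L))
    {c c' : Set (IrrCharacter H)} (hce : Covers c (trB (subE hLH) e)) (hce' : Covers c' (trB (subE hLH) e))
    {B : Set (IrrCharacter G)} (hcB : IsInducedBlock M H c B) (hcB' : IsInducedBlock M H c' B) : c = c' := by
  have hQH : Q ≤ H := by rw [hH]; exact Subgroup.le_normalizer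
  obtain ⟨D, hDH, hD, hDQ⟩ := exists_defect_H hM hQN hQH hH.le hLH hLN hL he heQ hcB.1 hce
  obtain ⟨D', hDH', hD', hDQ'⟩ := exists_defect_H hM hQN hQH hH.le hLH hLN hL he heQ hcB'.1 hce'
  have hDp : IsPGroup p D := (defectGroup_isPGroup hD).of_equiv (Subgroup.subgroupOfEquivOfLe hDH)
  have hDp' : IsPGroup p D' := (defectGroup_isPGroup hD').of_equiv (Subgroup.subgroupOfEquivOfLe hDH')
  have hNH : Subgroup.normalizer (D : Set G) ≤ H := (normalizer_le_of_inf hDQ).trans hH.ge
  have hNH' : Subgroup.normalizer (D' : Set G) ≤ H := (normalizer_le_of_inf hDQ').trans hH.ge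
  have h1 := defect_of hM hDp hDH hNH hcB hD
  have h2 := defect_of hM hDp' hDH' hNH' hcB' hD'
  obtain ⟨x, hx⟩ := defectGroup_conj hM hcB.2.1 h1 h2
  have hxH : x ∈ H := by
    rw [hH]
    apply mem_normalizer_of_map_conj
    have h3 : (D.map (MulAut.conj x).toMonoidHom) ⊓ N = (D ⊓ N).map (MulAut.conj x).toMonoidHom := map_conj_inf D x
    rw [← hx, hDQ, hDQ'] at h3
    exact h3.symm
  have h4 := defectGroup_map_conj hD (⟨x, hxH⟩ : H)
  have h5 : (D.subgroupOf H).map (MulAut.conj (⟨x, hxH⟩ : H)).toMonoidHom = D'.subgroupOf H := by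
    ext y
    rw [BlockDefect.mem_map_conj, hx, Subgroup.mem_subgroupOf, Subgroup.mem_subgroupOf, BlockDefect.mem_map_conj]
    rfl
  rw [h5] at h4
  exact first_unique hM hDp' hDH' hNH' hcB h4 hcB' hD'

/-- two blocks of `N` covered by the same block are conjugate -/
theorem covered_conj (hM : IsPModular p M) {B : Set (IrrCharacter G)} (hB : IsPBlock M B)
    {d d' : Set (IrrCharacter N)} (hd : IsPBlock M d) (hd' : IsPBlock M d') (h : Covers B d)
    (h' : Covers B d') : ∃ g : G, d' = cjB g d := by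
  haveI := isPrime hM
  obtain ⟨χ, hχ, θ', hθ', h1⟩ := h'
  obtain ⟨g, θ, hθ, h2⟩ := mem_orbitSet_of_covers hB (unionOfBlocks_of_isPBlock hd) h hχ h1
  refine ⟨g, block_eq_of_mem hd' (isPBlock_cjB.2 hd) hθ' ?_⟩
  rw [mem_cjB]
  exact ⟨θ, hθ, Subtype.ext (by rw [cjEquiv_coe]; exact h2.symm)⟩

theorem subgroupOf_eq_normalizer {Q H L : Subgroup G} (hQN : Q ≤ N) (hH : H = Subgroup.normalizer (Q : Set G))
    (hLH : L ≤ H) (hL : H ⊓ N ≤ L) :
    L.subgroupOf N = Subgroup.normalizer ((Q.subgroupOf N : Subgroup N) : Set N) := by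
  rw [← normalizer_subgroupOf hQN, ← hH]
  ext x
  exact ⟨fun h => hLH h, fun h => hL ⟨h, x.2⟩⟩

theorem covers_of_conj (hM : IsPModular p M) {Q H L : Subgroup G} (hQ : IsPGroup p Q) (hQN : Q ≤ N)
    (hH : H = Subgroup.normalizer (Q : Set G))
    (hLH : L ≤ H) (hLN : L ≤ N) (hL : H ⊓ N ≤ L) [hLn : (L.subgroupOf H).Normal] [Fintype (L.subgroupOf H)]
    [Fintype H] {h : G} (hh : h ∈ H)
    {e e₂ : Set (IrrCharacter L)} {d d₂ : Set (IrrCharacter N)}
    (hed : IsInducedBlock M (L.subgroupOf N) (trB (subE hLN) e) d) (heQ : IsDefectGroup p M e (Q.subgroupOf L))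
    (hed₂ : IsInducedBlock M (L.subgroupOf N) (trB (subE hLN) e₂) d₂)
    (heQ₂ : IsDefectGroup p M e₂ (Q.subgroupOf L)) (hd₂ : d₂ = cjB h d)
    {c : Set (IrrCharacter H)} (hce₂ : Covers c (trB (subE hLH) e₂)) : Covers c (trB (subE hLH) e) := by
  classical
  set γ : L ≃* L := (subE hLH).symm.trans
    ((MulAut.conjNormal (⟨h, hh⟩ : H) : L.subgroupOf H ≃* L.subgroupOf H).trans (subE hLH)) with hγ
  have hγc : ∀ x : L, ((γ x : L) : G) = h * x * h⁻¹ := fun x => rfl
  set β : L.subgroupOf N ≃* L.subgroupOf N := (subE hLN).trans (γ.trans (subE hLN).symm) with hβ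
  have hβ' : ∀ x : L.subgroupOf N, ((β x : L.subgroupOf N) : N) = (MulAut.conjNormal h : N ≃* N) (x : N) :=
    fun x => Subtype.ext rfl
  have h1 := isInducedBlock_tr (MulAut.conjNormal h : N ≃* N) β hβ' hed
  have h2 : trB β (trB (subE hLN) e) = trB (subE hLN) (trB γ e) := by
    have h3 : ∀ ξ : IrrCharacter L, trI β (trI (subE hLN) ξ) = trI (subE hLN) (trI γ ξ) := by
      intro ξ
      apply Subtype.ext
      funext x
      show (ξ : L → ℂ) (subE hLN (β x)) = (ξ : L → ℂ) (γ (subE hLN x))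
      congr 1
    ext η
    constructor
    · rintro ⟨_, ⟨ξ, hξ, rfl⟩, rfl⟩
      rw [h3]
      exact ⟨_, ⟨ξ, hξ, rfl⟩, rfl⟩
    · rintro ⟨_, ⟨ξ, hξ, rfl⟩, rfl⟩
      rw [← h3]
      exact ⟨_, ⟨ξ, hξ, rfl⟩, rfl⟩
  rw [h2] at h1
  have hd₂' : trB (MulAut.conjNormal h : N ≃* N) d = d₂ := hd₂.symm
  rw [hd₂'] at h1
  have hγQ : IsDefectGroup p M (trB γ e) (Q.subgroupOf L) := by
    rw [isDefectGroup_tr_iff]
    have h4 : (Q.subgroupOf L).map γ.toMonoidHom = Q.subgroupOf L := by
      have hhQ : h ∈ Subgroup.normalizer (Q : Set G) := hH ▸ hh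
      ext x
      rw [Subgroup.mem_map]
      constructor
      · rintro ⟨y, hy, rfl⟩
        exact (Subgroup.mem_normalizer_iff.1 hhQ (y : G)).1 hy
      · intro hx
        refine ⟨γ.symm x, ?_, γ.apply_symm_apply x⟩
        have h5 : ((x : L) : G) = h * ((γ.symm x : L) : G) * h⁻¹ := by
          rw [← hγc, γ.apply_symm_apply]
        rw [Subgroup.mem_subgroupOf, h5] at hx
        exact (Subgroup.mem_normalizer_iff.1 hhQ _).2 hx
    rw [h4]
    exact heQ
  have hQ' : IsPGroup p (Q.subgroupOf N) := hQ.of_equiv (Subgroup.subgroupOfEquivOfLe hQN).symm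
  have hK := subgroupOf_eq_normalizer hQN hH hLH hL
  have h3 : trB (subE hLN) (trB γ e) = trB (subE hLN) e₂ := by
    apply first_main_unique' hM hK hQ' h1 _ hed₂ _
    · rw [isDefectGroup_tr_iff, map_subgroupOf_subgroupOf]; exact hγQ
    · rw [isDefectGroup_tr_iff, map_subgroupOf_subgroupOf]; exact heQ₂
  have h4 : trB γ e = e₂ := trB_injective _ h3
  subst h4
  obtain ⟨ψ, hψ, _, ⟨_, ⟨ξ, hξ, rfl⟩, rfl⟩, h5⟩ := hce₂
  refine ⟨ψ, hψ, trI (subE hLH) ξ, trI_mem_trB.2 hξ, ?_⟩
  have h6 : ((trI (subE hLH) (trI γ ξ) : IrrCharacter (L.subgroupOf H)) : L.subgroupOf H → ℂ) =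
      cj (L.subgroupOf H) (⟨h, hh⟩ : H) (trI (subE hLH) ξ : IrrCharacter (L.subgroupOf H)) := by
    funext x
    rfl
  rw [h6, classInner_cj_res ψ.2.isClassFunction] at h5
  exact h5

/-- existence in the Harris–Knörr theorem -/
theorem hk_exists (hM : IsPModular p M) {Q H L : Subgroup G} (hQ : IsPGroup p Q) (hQN : Q ≤ N)
    (hH : H = Subgroup.normalizer (Q : Set G))
    (hLH : L ≤ H) (hLN : L ≤ N) (hL : H ⊓ N ≤ L) [hLn : (L.subgroupOf H).Normal] [Fintype (L.subgroupOf H)]
    [Fintype H]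
    {e : Set (IrrCharacter L)} {d : Set (IrrCharacter N)}
    (hed : IsInducedBlock M (L.subgroupOf N) (trB (subE hLN) e) d) (heQ : IsDefectGroup p M e (Q.subgroupOf L))
    (hdQ : IsDefectGroup p M d (Q.subgroupOf N))
    {B : Set (IrrCharacter G)} (hB : IsPBlock M B) (hcov : Covers B d) :
    ∃ c : Set (IrrCharacter H), IsInducedBlock M H c B ∧ Covers c (trB (subE hLH) e) := by
  haveI := isPrime hM
  have hd : IsPBlock M d := hed.2.1
  have hQH : Q ≤ H := by rw [hH]; exact Subgroup.le_normalizer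
  have hCH : Subgroup.centralizer (Q : Set G) ≤ H := by rw [hH]; exact Subgroup.centralizer_le_normalizer _
  obtain ⟨D, hD, hDQ⟩ := exists_defect_inf hM hQN hd hdQ hB hcov
  have hNH : Subgroup.normalizer (D : Set G) ≤ H := (normalizer_le_of_inf hDQ).trans hH.ge
  have hDp := defectGroup_isPGroup hD
  obtain ⟨c, hcB, hcD⟩ := first_exists hM hDp hNH
    (fun c hc => inducedBlockDefined hM hQ hQH hCH hH.le hc) hB hD
  -- a block of `L` covered by `c` with defect group `Q`
  obtain ⟨e₁, he₁, -, hce₁, he₁D⟩ := knorr' (G := H) (N := L.subgroupOf H) hM hcB.1 hcD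
  obtain ⟨e₂, rfl⟩ : ∃ e₂, e₁ = trB (subE hLH) e₂ := ⟨_, (trB_symm_trB (subE hLH) e₁).symm⟩
  have he₂ : IsPBlock M e₂ := isPBlock_tr_iff.1 he₁
  have he₂Q : IsDefectGroup p M e₂ (Q.subgroupOf L) := by
    rw [isDefectGroup_tr_iff] at he₁D
    have h1 : (((D.subgroupOf H ⊓ L.subgroupOf H).subgroupOf (L.subgroupOf H))).map (subE hLH).toMonoidHom =
        Q.subgroupOf L := by
      ext x
      rw [Subgroup.mem_map]
      constructor
      · rintro ⟨y, hy, rfl⟩
        have h2 : ((y : H) : G) ∈ D ⊓ N := ⟨hy.1, hLN hy.2⟩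
        rw [hDQ] at h2
        exact h2
      · intro hx
        rw [Subgroup.mem_subgroupOf, ← hDQ] at hx
        exact ⟨(subE hLH).symm x, ⟨hx.1, x.2⟩, (subE hLH).apply_symm_apply x⟩
    rw [h1] at he₁D
    exact he₁D
  -- its Brauer correspondent in `N`
  have hQ' : IsPGroup p (Q.subgroupOf N) := hQ.of_equiv (Subgroup.subgroupOfEquivOfLe hQN).symm
  have hK := subgroupOf_eq_normalizer hQN hH hLH hL
  have hQL : Q.subgroupOf N ≤ L.subgroupOf N := by rw [hK]; exact Subgroup.le_normalizer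
  have hCL : Subgroup.centralizer ((Q.subgroupOf N : Subgroup N) : Set N) ≤ L.subgroupOf N := by
    rw [hK]; exact Subgroup.centralizer_le_normalizer _
  obtain ⟨d₂, hd₂⟩ := inducedBlockDefined hM hQ' hQL hCL hK.le (isPBlock_tr_iff (e := subE hLN).2 he₂)
  have hd₂Q : IsDefectGroup p M d₂ (Q.subgroupOf N) := by
    apply first_main_defect' hM hK hQ' hd₂
    rw [isDefectGroup_tr_iff, map_subgroupOf_subgroupOf]
    exact he₂Q
  have hcov₂ := covers_induced hM hQ hQN hQH hH.le hLH hLN hL hd₂ hcB.1 hce₁ hcB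
  obtain ⟨g, hg⟩ := covered_conj hM hB hd hd₂.2.1 hcov hcov₂
  -- adjust `g`
  have hQN' : (Q ⊓ N).subgroupOf N = Q.subgroupOf N := by rw [inf_eq_left.2 hQN]
  rw [hg, ← hQN', isDefectGroup_cjB] at hd₂Q
  obtain ⟨n, hn⟩ := defectGroup_conj hM hd hdQ hd₂Q
  have hgn : (n : G)⁻¹ * g ∈ Subgroup.normalizer (Q : Set G) := by
    have h1 : ∀ z : G, g⁻¹ * z * g ∈ Q ↔ (n : G)⁻¹ * z * n ∈ Q := by
      intro z
      constructor
      · intro hz
        have hzN : z ∈ N := by
          have := hN.conj_mem _ (hQN hz) g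
          simpa [mul_assoc] using this
        have h2 : (⟨z, hzN⟩ : N) ∈ ((Q.map (MulAut.conj g).toMonoidHom ⊓ N).subgroupOf N) :=
          ⟨BlockDefect.mem_map_conj.2 hz, hzN⟩
        rw [hn, BlockDefect.mem_map_conj] at h2
        exact h2
      · intro hz
        have hzN : z ∈ N := by
          have := hN.conj_mem _ (hQN hz) (n : G)
          simpa [mul_assoc] using this
        have h2 : (⟨z, hzN⟩ : N) ∈ (Q.subgroupOf N).map (MulAut.conj n).toMonoidHom := by
          rw [BlockDefect.mem_map_conj]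
          exact hz
        rw [← hn] at h2
        exact BlockDefect.mem_map_conj.1 h2.1
    apply mem_normalizer_of_map_conj
    ext y
    rw [BlockDefect.mem_map_conj]
    have h2 := h1 ((n : G) * y * (n : G)⁻¹)
    have h3 : g⁻¹ * ((n : G) * y * (n : G)⁻¹) * g = ((n : G)⁻¹ * g)⁻¹ * y * ((n : G)⁻¹ * g) := by group
    have h4 : (n : G)⁻¹ * ((n : G) * y * (n : G)⁻¹) * n = y := by group
    rw [h3, h4] at h2
    exact h2
  have hg' : g = (n : G) * ((n : G)⁻¹ * g) := by group
  have h5 : ∀ θ : IrrCharacter N, cjEquiv g θ = cjEquiv ((n : G)⁻¹ * g) θ := by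
    intro θ
    apply Subtype.ext
    rw [cjEquiv_coe, cjEquiv_coe]
    conv_lhs => rw [hg', ← cj_cj, cj_of_mem θ.2.isClassFunction n.2]
  refine ⟨c, hcB, covers_of_conj hM hQ hQN hH hLH hLN hL (h := (n : G)⁻¹ * g) (hH ▸ hgn) hed heQ hd₂ he₂Q ?_ hce₁⟩
  rw [hg]
  ext ψ
  rw [mem_cjB, mem_cjB]
  simp only [h5]

end hk

end Cfsg.Agent.Lib.H16HK
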