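import Mathlib
import Cfsg.Agent.Lib.CSPa
import Cfsg.Agent.Lib.CFSylow
import Cfsg.Agent.Lib.ConjCover

/-!
(helper9) Tools for groups with three conjugacy class sizes.
-/

set_option autoImplicit false
set_option linter.unusedSectionVars false

namespace Cfsg.Agent.Lib.H9Ito

open Subgroup Cfsg.Agent.Lib.CSP Cfsg.Agent.Lib.CFSylow

variable {G : Type*} [Group G] [Finite G]

/-- `p`-elements -/
def PEl (p : ℕ) (x : G) : Prop := ∃ k, orderOf x = p ^ k

/-- the `p`-part of a number -/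
noncomputable def lp (p n : ℕ) : ℕ := p ^ n.factorization p

theorem lp_pos {p : ℕ} (hp : p.Prime) (n : ℕ) : 0 < lp p n := pow_pos hp.pos _

theorem lp_dvd (p n : ℕ) : lp p n ∣ n := Nat.ordProj_dvd n p

theorem lp_mul {p a b : ℕ} (ha : a ≠ 0) (hb : b ≠ 0) : lp p (a * b) = lp p a * lp p b := by
  rw [lp, lp, lp, Nat.factorization_mul ha hb, Finsupp.add_apply, pow_add]

theorem lp_eq_one {p n : ℕ} (h : ¬ p ∣ n) : lp p n = 1 := by
  rw [lp, Nat.factorization_eq_zero_of_not_dvd h, pow_zero]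

theorem one_lt_lp {p n : ℕ} (hp : p.Prime) (hn : n ≠ 0) (h : p ∣ n) : 1 < lp p n :=
  Nat.one_lt_pow (by
    have := (hp.dvd_iff_one_le_factorization hn).1 h
    omega) hp.one_lt

theorem lp_pow {p : ℕ} (hp : p.Prime) (k : ℕ) : lp p (p ^ k) = p ^ k := by
  rw [lp, hp.factorization_pow, Finsupp.single_eq_same]

theorem lp_le_of_dvd {p a b : ℕ} (hp : p.Prime) (hb : b ≠ 0) (h : a ∣ b) : lp p a ≤ lp p b := by
  obtain ⟨c, rfl⟩ := h
  have ha : a ≠ 0 := by rintro rfl; simp at hb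
  have hc : c ≠ 0 := by rintro rfl; simp at hb
  rw [lp_mul ha hc]
  exact Nat.le_mul_of_pos_right _ (lp_pos hp c)

theorem relIndex_ne0 (T H : Subgroup G) : T.relIndex H ≠ 0 := by
  rw [relIndex]; exact index_ne_zero_of_finite

theorem relIndex_mul_card' {T H : Subgroup G} (h : T ≤ H) : T.relIndex H * Nat.card T = Nat.card H := by
  rw [← relIndex_bot_left, ← relIndex_bot_left, mul_comm]
  exact relIndex_mul_relIndex _ _ _ bot_le h

theorem SylIn.card' {p : ℕ} [hp : Fact p.Prime] {T H : Subgroup G} (h : SylIn p T H) :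
    Nat.card T = lp p (Nat.card H) := by
  obtain ⟨k, hk⟩ := h.isPGroup.exists_card_eq
  have h1 : Nat.card H = Nat.card T * T.relIndex H := by
    rw [mul_comm]; exact (relIndex_mul_card' h.1).symm
  rw [h1, lp_mul Nat.card_pos.ne' (relIndex_ne0 T H), hk, lp_pow hp.out, lp_eq_one h.not_dvd, mul_one]

/-! ### `p`-elements -/

theorem PEl.isPGroup {p : ℕ} [Fact p.Prime] {x : G} (h : PEl p x) : IsPGroup p (zpowers x) := by
  obtain ⟨k, hk⟩ := h
  exact IsPGroup.of_card (n := k) (by rw [Nat.card_zpowers, hk])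

theorem PEl.of_pow {p : ℕ} (hp : p.Prime) {x : G} {k : ℕ} (h : x ^ p ^ k = 1) : PEl p x := by
  obtain ⟨b, -, hb⟩ := (Nat.dvd_prime_pow hp).1 (orderOf_dvd_of_pow_eq_one h)
  exact ⟨b, hb⟩

theorem PEl.of_mem {p : ℕ} [hp : Fact p.Prime] {T : Subgroup G} (hT : IsPGroup p T) {x : G} (hx : x ∈ T) : PEl p x := by
  obtain ⟨k, hk⟩ := hT ⟨x, hx⟩
  refine PEl.of_pow hp.out (k := k) ?_
  have := congrArg Subtype.val hk
  simpa using this

theorem PEl.conj {p : ℕ} {x : G} (h : PEl p x) (g : G) : PEl p (g * x * g⁻¹) := by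
  obtain ⟨k, hk⟩ := h
  exact ⟨k, by rw [← hk]; exact ((MulAut.conj g).orderOf_eq x)⟩

theorem PEl.coprime {p : ℕ} (hp : p.Prime) {x y : G} (h : PEl p x) (hy : (orderOf y).Coprime p) :
    (orderOf x).Coprime (orderOf y) := by
  obtain ⟨k, hk⟩ := h
  rw [hk]; exact hy.symm.pow_left k

theorem PEl.coprime' {p q : ℕ} (hp : p.Prime) (hq : q.Prime) (hpq : p ≠ q) {y : G} (h : PEl q y) : (orderOf y).Coprime p := by
  obtain ⟨k, hk⟩ := h
  rw [hk]; exact ((Nat.coprime_primes hq hp).2 hpq.symm).pow_left k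

theorem PEl.coprime2 {p q : ℕ} (hp : p.Prime) (hq : q.Prime) (hpq : p ≠ q) {x y : G} (h : PEl p x) (h' : PEl q y) :
    (orderOf x).Coprime (orderOf y) := h.coprime hp (h'.coprime' hp hq hpq)

theorem C_mul {x y : G} (hc : x * y = y * x) (hco : (orderOf x).Coprime (orderOf y)) : C (x * y) = C x ⊓ C y := by
  apply le_antisymm
  · refine le_inf (C_le_of_mem_zpowers (mem_zpowers_mul hc hco)) ?_
    rw [hc]
    exact C_le_of_mem_zpowers (mem_zpowers_mul hc.symm hco.symm)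
  · exact le_C_mul inf_le_left inf_le_right

theorem mul_notMem_center {x y : G} (hc : x * y = y * x) (hco : (orderOf x).Coprime (orderOf y)) (hx : x ∉ center G) :
    x * y ∉ center G := fun h => hx ((zpowers_le.2 h) (mem_zpowers_mul hc hco))

/-! ### Central subgroups, good elements -/

/-- `Z` is a central subgroup of `X` -/
structure Cen (X Z : Subgroup G) : Prop where
  le : Z ≤ X
  comm : ∀ z ∈ Z, ∀ x ∈ X, z * x = x * z

theorem Cen.mono {X Y Z : Subgroup G} (h : Cen X Z) (hY : Y ≤ X) (hZ : Z ≤ Y) : Cen Y Z :=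
  ⟨hZ, fun z hz x hx => h.comm z hz x (hY hx)⟩

theorem exists_good {p : ℕ} [Fact p.Prime] {Z S : Subgroup G} (hc : ∀ z ∈ Z, ∀ g ∈ S, z * g = g * z)
    (hS : IsPGroup p S) (h : ¬ S ≤ Z) :
    ∃ u ∈ S, u ∉ Z ∧ ∀ g ∈ S, u⁻¹ * (g * u * g⁻¹) ∈ Z := by
  set N : Subgroup S := Z.subgroupOf S with hN
  have hNn : N.Normal := by
    refine ⟨fun n hn g => ?_⟩
    rw [hN, mem_subgroupOf] at hn ⊢
    have : ((g * n * g⁻¹ : S) : G) = n := by
      push_cast
      rw [← hc _ hn _ g.2, mul_assoc, mul_inv_cancel, mul_one]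
    rw [this]; exact hn
  have hQ : IsPGroup p (S ⧸ N) := hS.to_quotient N
  have hnt : Nontrivial (S ⧸ N) := by
    rw [QuotientGroup.nontrivial_iff]
    intro htop
    apply h
    intro x hx
    have : (⟨x, hx⟩ : S) ∈ N := htop ▸ mem_top _
    exact this
  have hct := hQ.center_nontrivial
  obtain ⟨c, hc1⟩ := exists_ne (1 : center (S ⧸ N))
  obtain ⟨u, hu⟩ := QuotientGroup.mk_surjective (c : S ⧸ N)
  refine ⟨u, u.2, fun huZ => hc1 ?_, fun g hg => ?_⟩
  · apply Subtype.ext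
    rw [← hu]
    exact (QuotientGroup.eq_one_iff u).2 huZ
  · have h1 := mem_center_iff.1 c.2 (QuotientGroup.mk (⟨g, hg⟩⁻¹ : S))
    rw [← hu, ← QuotientGroup.mk_mul, ← QuotientGroup.mk_mul, eq_comm, QuotientGroup.eq] at h1
    rw [hN, mem_subgroupOf] at h1
    have h2 := inv_mem h1
    have h3 : (((((u : S) * (⟨g, hg⟩⁻¹ : S))⁻¹ * ((⟨g, hg⟩⁻¹ : S) * u) : S) : G))⁻¹ = (u : G)⁻¹ * (g * u * g⁻¹) := by
      push_cast
      group
    rw [h3] at h2
    exact h2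

/-- semiregular action: the key inequality -/
theorem semireg {s q : ℕ} [hs : Fact s.Prime] [hq : Fact q.Prime] (hsq : s ≠ q) {S T Q Z : Subgroup G}
    (hS : IsPGroup s S) (hQ : IsPGroup q Q) (hTS : T ≤ S)
    (hSQ : ∀ g ∈ S, ∀ v ∈ Q, g * v * g⁻¹ ∈ Q)
    (hZS : ∀ z ∈ Z, ∀ g ∈ S, z * g = g * z)
    (hfix : ∀ g ∈ S, ∀ v ∈ Q, v ∉ Z → g * v = v * g → g ∈ T)
    (hne : ¬ Q ≤ Z) :
    Nat.card S * Nat.card (Q ⊓ Z : Subgroup G) < Nat.card T * Nat.card Q := by
  obtain ⟨v, hv, hvZ⟩ := SetLike.not_le_iff_exists.1 hne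
  -- an injection
  have key : ∀ g ∈ S, ∀ z ∈ Q ⊓ Z, g * v * g⁻¹ = v * z → g * v = v * g := by
    intro g hg z hz he
    have h1 : ∀ n : ℕ, g ^ n * v * (g ^ n)⁻¹ = v * z ^ n := by
      intro n
      induction n with
      | zero => simp
      | succ n ih =>
        have h2 : g ^ (n + 1) * v * (g ^ (n + 1))⁻¹ = g * (g ^ n * v * (g ^ n)⁻¹) * g⁻¹ := by
          rw [pow_succ']; group
        have h3 : g * z ^ n * g⁻¹ = z ^ n := by
          have := (show Commute z g from hZS z hz.2 g hg).pow_left n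
          rw [← this.eq, mul_assoc, mul_inv_cancel, mul_one]
        rw [h2, ih]
        calc g * (v * z ^ n) * g⁻¹ = (g * v * g⁻¹) * (g * z ^ n * g⁻¹) := by group
          _ = v * z ^ (n + 1) := by rw [he, h3, mul_assoc, ← pow_succ']
    obtain ⟨a, ha⟩ := PEl.of_mem hS hg
    have h2 := h1 (orderOf g)
    rw [pow_orderOf_eq_one, one_mul, inv_one, mul_one, left_eq_mul] at h2
    have h3 : orderOf z ∣ s ^ a := ha ▸ orderOf_dvd_of_pow_eq_one h2
    obtain ⟨b, hb⟩ := PEl.of_mem hQ hz.1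
    have h4 : orderOf z = 1 := by
      have h5 : (s ^ a).Coprime (q ^ b) := ((Nat.coprime_primes hs.out hq.out).2 hsq).pow a b
      exact Nat.eq_one_of_dvd_coprimes h5 h3 (hb ▸ dvd_rfl)
    rw [orderOf_eq_one_iff] at h4
    rw [h4, mul_one] at he
    exact mul_inv_eq_iff_eq_mul.1 he
  let f : (S ⧸ T.subgroupOf S) × (Q ⊓ Z : Subgroup G) → {x : Q // (x : G) ∉ Z} := fun c =>
    ⟨⟨(c.1.out : G) * v * (c.1.out : G)⁻¹ * c.2, mul_mem (hSQ _ c.1.out.2 _ hv) c.2.2.1⟩, fun h0 => by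
      have h1 : (c.1.out : G) * v * (c.1.out : G)⁻¹ ∈ Z := (Subgroup.mul_mem_cancel_right Z c.2.2.2).1 h0
      have h2 : v = (c.1.out : G) * v * (c.1.out : G)⁻¹ := by
        have h3 := hZS _ h1 _ c.1.out.2
        have h4 : (c.1.out : G) * v * (c.1.out : G)⁻¹ * (c.1.out : G) = (c.1.out : G) * v := by group
        rw [h4] at h3
        exact mul_left_cancel h3
      exact hvZ (h2 ▸ h1)⟩
  have hf : Function.Injective f := by
    rintro ⟨c, z⟩ ⟨c', z'⟩ he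
    have he1 : (c.out : G) * v * (c.out : G)⁻¹ * z = (c'.out : G) * v * (c'.out : G)⁻¹ * z' :=
      congrArg (fun x : {x : Q // (x : G) ∉ Z} => ((x : Q) : G)) he
    have h1 : ((c'.out : G)⁻¹ * c.out) * v * ((c'.out : G)⁻¹ * c.out)⁻¹ = v * ((z' : G) * (z : G)⁻¹) := by
      have h2 : (c.out : G) * v * (c.out : G)⁻¹ = (c'.out : G) * v * (c'.out : G)⁻¹ * ((z' : G) * (z : G)⁻¹) := by
        calc (c.out : G) * v * (c.out : G)⁻¹ = ((c.out : G) * v * (c.out : G)⁻¹ * z) * (z : G)⁻¹ := by group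
          _ = ((c'.out : G) * v * (c'.out : G)⁻¹ * z') * (z : G)⁻¹ := by rw [he1]
          _ = _ := by group
      calc ((c'.out : G)⁻¹ * c.out) * v * ((c'.out : G)⁻¹ * c.out)⁻¹
          = (c'.out : G)⁻¹ * ((c.out : G) * v * (c.out : G)⁻¹) * c'.out := by group
        _ = v * ((c'.out : G)⁻¹ * (((z' : G) * (z : G)⁻¹) * c'.out)) := by rw [h2]; group
        _ = v * ((z' : G) * (z : G)⁻¹) := by
          have h5 := hZS _ (mul_mem z'.2.2 (inv_mem z.2.2)) _ c'.out.2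
          rw [h5, ← mul_assoc _ (c'.out : G) _, inv_mul_cancel, one_mul]
    have hg : (c'.out : G)⁻¹ * c.out ∈ S := mul_mem (inv_mem c'.out.2) c.out.2
    have h2 := key _ hg _ (mul_mem z'.2 (inv_mem z.2)) h1
    have h3 := hfix _ hg v hv hvZ h2
    have h4 : c' = c := by
      rw [← QuotientGroup.out_eq' c', ← QuotientGroup.out_eq' c, QuotientGroup.eq, mem_subgroupOf]
      exact h3
    subst h4
    have h5 : (z : G) = z' := mul_left_cancel he1
    exact Prod.ext rfl (Subtype.ext h5)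
  have h1 := Nat.card_le_card_of_injective f hf
  rw [Nat.card_prod] at h1
  have h2 : Nat.card {x : Q // (x : G) ∉ Z} < Nat.card Q := by
    refine Finite.card_subtype_lt (x := (1 : Q)) ?_
    simp
  have h3 : Nat.card (S ⧸ T.subgroupOf S) * Nat.card T = Nat.card S := by
    rw [← relIndex_mul_card' hTS]; rfl
  rw [← h3]
  have h4 : 0 < Nat.card T := Nat.card_pos
  calc Nat.card (S ⧸ T.subgroupOf S) * Nat.card T * Nat.card (Q ⊓ Z : Subgroup G)
      = Nat.card T * (Nat.card (S ⧸ T.subgroupOf S) * Nat.card (Q ⊓ Z : Subgroup G)) := by ring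
    _ < Nat.card T * Nat.card Q := Nat.mul_lt_mul_of_pos_left (lt_of_le_of_lt h1 h2) h4

/-- large subgroups meet -/
theorem card_mul_le {S A B : Subgroup G} (hA : A ≤ S) (hB : B ≤ S) :
    Nat.card A * Nat.card B ≤ Nat.card S * Nat.card (A ⊓ B : Subgroup G) := by
  have h1 := relIndex_mul_card' (inf_le_left : A ⊓ B ≤ A)
  have h2 : (A ⊓ B).relIndex A = B.relIndex A := Subgroup.inf_relIndex_left A B
  have h3 := relIndex_mul_card' hB
  have h4 : B.relIndex A ≤ B.relIndex S := Subgroup.relIndex_le_of_le_right hA (relIndex_ne0 _ _)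
  rw [← h1, h2, ← h3]
  calc B.relIndex A * Nat.card (A ⊓ B : Subgroup G) * Nat.card B
      = (Nat.card B * Nat.card (A ⊓ B : Subgroup G)) * B.relIndex A := by ring
    _ ≤ (Nat.card B * Nat.card (A ⊓ B : Subgroup G)) * B.relIndex S := Nat.mul_le_mul_left _ h4
    _ = _ := by ring

/-- `u` is good for `S` modulo `Z` -/
def Good (S Z : Subgroup G) (u : G) : Prop := u ∈ S ∧ u ∉ Z ∧ ∀ g ∈ S, u⁻¹ * (g * u * g⁻¹) ∈ Z

theorem mem_normalizer_of {N : Subgroup G} {g : G} (h : ∀ x ∈ N, g * x * g⁻¹ ∈ N) : g ∈ normalizer (N : Set G) := by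
  apply mem_normalizer_of_le
  rintro _ ⟨x, hx, rfl⟩
  exact h x hx

theorem Good.norm {X Z S : Subgroup G} (hc : Cen X Z) (hS : S ≤ X) {u : G} (hu : Good S Z u) :
    S ≤ normalizer ((X ⊓ C u : Subgroup G) : Set G) := by
  intro g hg
  apply mem_normalizer_of
  intro x hx
  rw [mem_inf]
  refine ⟨mul_mem (mul_mem (hS hg) hx.1) (inv_mem (hS hg)), ?_⟩
  have h1 := hu.2.2 g⁻¹ (S.inv_mem hg)
  rw [inv_inv] at h1
  have h2 := hc.comm _ h1 x hx.1
  have h3 := mem_C.1 hx.2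
  rw [mem_C]
  have h4 : x * (g⁻¹ * u * g) = (g⁻¹ * u * g) * x := by
    have h5 : g⁻¹ * u * g = u * (u⁻¹ * (g⁻¹ * u * g)) := by group
    rw [h5, ← mul_assoc, h3, mul_assoc, ← h2, ← mul_assoc]
  calc g * x * g⁻¹ * u = g * (x * (g⁻¹ * u * g)) * g⁻¹ := by group
    _ = u * (g * x * g⁻¹) := by rw [h4]; group

theorem Good.syl {s : ℕ} [Fact s.Prime] {X Z S : Subgroup G} (hc : Cen X Z) (hS : SylIn s S X) {u : G} (hu : Good S Z u) :
    SylIn s (S ⊓ C u) (X ⊓ C u) := by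
  have h1 : SylIn s S (S ⊔ (X ⊓ C u)) := hS.of_le le_sup_left (sup_le hS.le inf_le_left)
  have h2 := h1.inf_normal (N := X ⊓ C u) le_sup_right (sup_le (hu.norm hc hS.le) le_normalizer)
  have h3 : S ⊓ (X ⊓ C u) = S ⊓ C u := by
    rw [← inf_assoc, inf_eq_left.2 hS.le]
  rwa [h3] at h2

theorem syl_center {q : ℕ} [Fact q.Prime] {X Z Q : Subgroup G} (hc : Cen X Z) (hQ : SylIn q Q X) :
    Nat.card (Q ⊓ Z : Subgroup G) = lp q (Nat.card Z) := by
  apply SylIn.card'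
  apply hQ.inf_normal hc.le
  intro g hg
  apply mem_normalizer_of
  intro x hx
  rw [← hc.comm x hx g hg, mul_assoc, mul_inv_cancel, mul_one]; exact hx

theorem not_le_center {q : ℕ} [Fact q.Prime] {X Z Q : Subgroup G} (hc : Cen X Z) (hQ : SylIn q Q X) {v : G}
    (hv : v ∈ X) (hv1 : PEl q v) (hvZ : v ∉ Z) : ¬ Q ≤ Z := by
  intro hle
  obtain ⟨x, hx, hxQ⟩ := hQ.exists_conj_le hv1.isPGroup (zpowers_le.2 hv)
  have h1 : x * v * x⁻¹ ∈ Z := hle (hxQ (conj_mem_cj (mem_zpowers v)))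
  apply hvZ
  have h2 := hc.comm _ h1 x hx
  have h3 : x * v * x⁻¹ * x = x * v := by group
  rw [h3] at h2
  have h4 := mul_left_cancel h2
  rw [h4]; exact h1

/-- the index inequality for a good element -/
theorem Good.lt {s q : ℕ} [Fact s.Prime] [Fact q.Prime] (hsq : s ≠ q) {X Z S Q : Subgroup G} (hc : Cen X Z)
    (hS : SylIn s S X) {u : G} (hu : Good S Z u) (hQ : SylIn q Q (X ⊓ C u)) (hSQ : S ≤ normalizer (Q : Set G))
    (hfix : ∀ g ∈ S, ∀ v ∈ X ⊓ C u, PEl q v → v ∉ Z → g * v = v * g → g ∈ C u)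
    {v : G} (hv : v ∈ X ⊓ C u) (hv1 : PEl q v) (hvZ : v ∉ Z) :
    lp s (Nat.card X) * lp q (Nat.card Z) <
      lp s (Nat.card (X ⊓ C u : Subgroup G)) * lp q (Nat.card (X ⊓ C u : Subgroup G)) := by
  have hc' : Cen (X ⊓ C u) Z := hc.mono inf_le_left (le_inf hc.le (fun z hz => mem_C.2 (hc.comm z hz u (hS.le hu.1))))
  have h1 := not_le_center hc' hQ hv hv1 hvZ
  have h2 := semireg hsq (S := S) (T := S ⊓ C u) (Q := Q) (Z := Z) hS.isPGroup hQ.isPGroup inf_le_left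
    (fun g hg v hv => (CFSylow.le_normalizer_iff.1 hSQ) g hg v hv)
    (fun z hz g hg => hc.comm z hz g (hS.le hg))
    (fun g hg w hw hwZ he => ⟨hg, hfix g hg w (hQ.le hw) (PEl.of_mem hQ.isPGroup hw) hwZ he⟩) h1
  rw [SylIn.card' hS, syl_center hc' hQ, SylIn.card' (hu.syl hc hS), SylIn.card' hQ] at h2
  exact h2

/-- two centralizers with large `s`-parts share, up to conjugation, an `s`-element outside `Z` -/
theorem Good.meet {s : ℕ} [hs : Fact s.Prime] {X Z S : Subgroup G} (hc : Cen X Z)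
    (hS : SylIn s S X) {u : G} (hu : Good S Z u) {w : G}
    (h : lp s (Nat.card X) * lp s (Nat.card Z) <
      lp s (Nat.card (X ⊓ C u : Subgroup G)) * lp s (Nat.card (X ⊓ C w : Subgroup G))) :
    ∃ g ∈ X, ∃ c, PEl s c ∧ c ∉ Z ∧ c ∈ X ⊓ C u ∧ c ∈ C (g * w * g⁻¹) := by
  obtain ⟨T, hT⟩ := exists_sylIn s (X ⊓ C w)
  obtain ⟨g, hg, hgT⟩ := hS.exists_conj_le hT.isPGroup (hT.le.trans inf_le_left)
  have h1 := card_mul_le (S := S) (A := S ⊓ C u) (B := cj g T) inf_le_left hgT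
  rw [SylIn.card' (hu.syl hc hS), card_cj, SylIn.card' hT, SylIn.card' hS] at h1
  have h2 : ¬ (S ⊓ C u) ⊓ cj g T ≤ Z := by
    intro hle
    have h3 : IsPGroup s ((S ⊓ C u) ⊓ cj g T : Subgroup G) := hS.isPGroup.to_le (inf_le_left.trans inf_le_left)
    obtain ⟨R, hR⟩ := exists_sylIn s Z
    have h4 := hR.card_le h3 hle
    rw [SylIn.card' hR] at h4
    have h5 := Nat.mul_le_mul_left (lp s (Nat.card X)) h4
    omega
  obtain ⟨c, hc1, hc2⟩ := SetLike.not_le_iff_exists.1 h2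
  refine ⟨g, hg, c, PEl.of_mem hS.isPGroup hc1.1.1, hc2, ⟨hS.le hc1.1.1, hc1.1.2⟩, ?_⟩
  have h3 := mem_cj.1 hc1.2
  rw [C_conj]
  exact (hT.le h3).2

end Cfsg.Agent.Lib.H9Ito
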