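import Mathlib
import Cfsg.Agent.Lib.H9ItoA

/-!
(helper9) Conjugacy of abelian centralizers.
-/

set_option autoImplicit false
set_option linter.unusedSectionVars false

namespace Cfsg.Agent.Lib.H9Ito

open Subgroup Cfsg.Agent.Lib.CSP Cfsg.Agent.Lib.CFSylow

variable {G : Type*} [Group G] [Finite G]

/-- centralizers in `X` of `s`-elements outside `Z` are abelian of order `c` -/
def AB (X Z : Subgroup G) (s c : ℕ) : Prop :=
  ∀ h ∈ X, PEl s h → h ∉ Z → (∀ a ∈ X ⊓ C h, ∀ b ∈ X ⊓ C h, a * b = b * a) ∧ Nat.card (X ⊓ C h : Subgroup G) = c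

/-- `h` is an element of `X` outside `Z` which is an `s`- or `q`-element -/
def El (X Z : Subgroup G) (s q : ℕ) (h : G) : Prop := h ∈ X ∧ h ∉ Z ∧ (PEl s h ∨ PEl q h)

theorem AB.eq {X Z : Subgroup G} {s q c : ℕ} (hs : AB X Z s c) (hq : AB X Z q c) {h v : G} (hh : El X Z s q h)
    (hv : El X Z s q v) (hvh : v ∈ C h) : X ⊓ C v = X ⊓ C h := by
  have H : ∀ w, El X Z s q w → (∀ a ∈ X ⊓ C w, ∀ b ∈ X ⊓ C w, a * b = b * a) ∧ Nat.card (X ⊓ C w : Subgroup G) = c := by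
    rintro w ⟨h1, h2, h3 | h3⟩
    · exact hs w h1 h3 h2
    · exact hq w h1 h3 h2
  have h1 : X ⊓ C h ≤ X ⊓ C v := by
    intro x hx
    exact ⟨hx.1, mem_C.2 ((H h hh).1 x hx v ⟨hv.1, hvh⟩)⟩
  exact (eq_of_le_of_card_le h1 (by rw [(H h hh).2, (H v hv).2])).symm

theorem inf_C_conj {X : Subgroup G} {g : G} (hg : g ∈ X) (w : G) : X ⊓ C (g * w * g⁻¹) = cj g (X ⊓ C w) := by
  ext x
  rw [mem_cj, mem_inf, mem_inf, C_conj]
  constructor
  · rintro ⟨h1, h2⟩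
    exact ⟨mul_mem (mul_mem (inv_mem hg) h1) hg, h2⟩
  · rintro ⟨h1, h2⟩
    refine ⟨?_, h2⟩
    have := mul_mem (mul_mem hg h1) (inv_mem hg)
    convert this using 1
    group

theorem Cen.conj_notMem {X Z : Subgroup G} (hc : Cen X Z) {g w : G} (hg : g ∈ X) (hw : w ∉ Z) : g * w * g⁻¹ ∉ Z := by
  intro h1
  apply hw
  have h2 := hc.comm _ h1 g hg
  have h3 : g * w * g⁻¹ * g = g * w := by group
  rw [h3] at h2
  have h4 := mul_left_cancel h2
  rw [h4]; exact h1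

theorem El.conj {X Z : Subgroup G} (hc : Cen X Z) {s q : ℕ} {h : G} (hh : El X Z s q h) {g : G} (hg : g ∈ X) :
    El X Z s q (g * h * g⁻¹) :=
  ⟨mul_mem (mul_mem hg hh.1) (inv_mem hg), hc.conj_notMem hg hh.2.1, hh.2.2.imp (fun h => h.conj g) (fun h => h.conj g)⟩

/-- for abelian centralizers, the Sylow subgroup is invariant -/
theorem ab_inv {q : ℕ} [Fact q.Prime] {A : Subgroup G} (hA : ∀ a ∈ A, ∀ b ∈ A, a * b = b * a) {Q : Subgroup G}
    (hQ : SylIn q Q A) : normalizer (A : Set G) ≤ normalizer (Q : Set G) := by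
  intro g hg
  have h1 := hQ.conj g
  rw [CFSylow.mem_normalizer.1 hg] at h1
  obtain ⟨x, hx, hxQ⟩ := hQ.exists_conj_eq h1
  rw [CFSylow.mem_normalizer, ← hxQ]
  ext y
  rw [mem_cj]
  constructor
  · intro hy
    have hy' := hA x hx _ (hQ.le hy)
    have : y = x⁻¹ * y * x := by
      have h2 : x * (x⁻¹ * y * x) = y * x := by group
      rw [h2] at hy'
      exact mul_right_cancel hy'
    rw [this]; exact hy
  · intro hy
    have : x⁻¹ * y * x = y := by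
      rw [mul_assoc, hA _ (hQ.le hy) _ hx, ← mul_assoc, inv_mul_cancel, one_mul]
    rw [this]; exact hy

/-- the inequality for a good element with abelian centralizer -/
theorem ab_lt {s q c : ℕ} [Fact s.Prime] [Fact q.Prime] (hsq : s ≠ q) {X Z S : Subgroup G} (hc : Cen X Z)
    (hs : AB X Z s c) (hq : AB X Z q c)
    (hS : SylIn s S X) {u : G} (hu : Good S Z u) {v : G} (hv : v ∈ X ⊓ C u) (hv1 : PEl q v) (hvZ : v ∉ Z) :
    lp s (Nat.card X) * lp q (Nat.card Z) < lp s c * lp q c := by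
  obtain ⟨Q, hQ⟩ := exists_sylIn q (X ⊓ C u)
  have huX := hS.le hu.1
  have hu1 : PEl s u := PEl.of_mem hS.isPGroup hu.1
  have h1 := hs u huX hu1 hu.2.1
  have h2 := hu.lt hsq hc hS hQ ((hu.norm hc hS.le).trans (ab_inv h1.1 hQ)) (by
    intro g hg w hw hwq hwZ he
    have h3 := AB.eq hs hq (h := u) (v := w) ⟨huX, hu.2.1, Or.inl hu1⟩ ⟨hw.1, hwZ, Or.inr hwq⟩ hw.2
    have h4 : g ∈ X ⊓ C w := ⟨hS.le hg, mem_C.2 he⟩
    rw [h3] at h4
    exact h4.2) hv hv1 hvZ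
  rwa [h1.2] at h2

theorem El.symm {X Z : Subgroup G} {s q : ℕ} {h : G} (hh : El X Z s q h) : El X Z q s h := ⟨hh.1, hh.2.1, hh.2.2.symm⟩

/-- one-sided conjugacy -/
theorem ab_conj_one {s q c : ℕ} [Fact s.Prime] [Fact q.Prime] {X Z : Subgroup G} (hc : Cen X Z)
    (hs : AB X Z s c) (hq : AB X Z q c)
    (hlarge : lp s (Nat.card X) * lp s (Nat.card Z) < lp s c * lp s c)
    (hes : ∀ h, El X Z s q h → ∃ v ∈ X ⊓ C h, PEl s v ∧ v ∉ Z)
    {u w : G} (hu : El X Z s q u) (hw : El X Z s q w) : ∃ g ∈ X, X ⊓ C (g * w * g⁻¹) = X ⊓ C u := by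
  obtain ⟨S, hS⟩ := exists_sylIn s X
  have hcomm : ∀ z ∈ Z, ∀ g ∈ S, z * g = g * z := fun z hz g hg => hc.comm z hz g (hS.le hg)
  obtain ⟨u0, hu0, hu0s, hu0Z⟩ := hes u hu
  obtain ⟨a, haS, haZ, hag⟩ := exists_good hcomm hS.isPGroup (not_le_center hc hS hu0.1 hu0s hu0Z)
  have hgood : Good S Z a := ⟨haS, haZ, hag⟩
  have ha : El X Z s q a := ⟨hS.le haS, haZ, Or.inl (PEl.of_mem hS.isPGroup haS)⟩
  have key : ∀ w, El X Z s q w → ∃ g ∈ X, X ⊓ C (g * w * g⁻¹) = X ⊓ C a := by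
    intro w hw
    obtain ⟨w0, hw0, hw0s, hw0Z⟩ := hes w hw
    have hE : El X Z s q w0 := ⟨hw0.1, hw0Z, Or.inl hw0s⟩
    have h1 := AB.eq hs hq hw hE hw0.2
    obtain ⟨g, hg, c0, hc0s, hc0Z, hc0, hc0'⟩ := hgood.meet hc hS (w := w0) (by
      rw [(hs a ha.1 (PEl.of_mem hS.isPGroup haS) haZ).2, (hs w0 hw0.1 hw0s hw0Z).2]; exact hlarge)
    have hEc : El X Z s q c0 := ⟨hc0.1, hc0Z, Or.inl hc0s⟩
    refine ⟨g, hg, ?_⟩
    rw [inf_C_conj hg, ← h1, ← inf_C_conj hg, ← AB.eq hs hq (hE.conj hc hg) hEc hc0', AB.eq hs hq ha hEc hc0.2]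
  obtain ⟨g, hg, h1⟩ := key w hw
  obtain ⟨g', hg', h2⟩ := key u hu
  refine ⟨g'⁻¹ * g, mul_mem (inv_mem hg') hg, ?_⟩
  rw [inf_C_conj (mul_mem (inv_mem hg') hg), ← cj_cj, ← inf_C_conj hg, h1, ← h2, inf_C_conj hg', cj_inv_cj]

/-- Lemma AC: all the centralizers are conjugate. -/
theorem ab_conj {s q c : ℕ} [hsp : Fact s.Prime] [hqp : Fact q.Prime] (hsq : s ≠ q) {X Z : Subgroup G} (hc : Cen X Z)
    (hs : AB X Z s c) (hq : AB X Z q c)
    (hes : ∀ h, El X Z s q h → ∃ v ∈ X ⊓ C h, PEl s v ∧ v ∉ Z)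
    (heq : ∀ h, El X Z s q h → ∃ v ∈ X ⊓ C h, PEl q v ∧ v ∉ Z)
    {u w : G} (hu : El X Z s q u) (hw : El X Z s q w) : ∃ g ∈ X, X ⊓ C (g * w * g⁻¹) = X ⊓ C u := by
  by_cases h1 : lp s (Nat.card X) * lp s (Nat.card Z) < lp s c * lp s c
  · exact ab_conj_one hc hs hq h1 hes hu hw
  by_cases h2 : lp q (Nat.card X) * lp q (Nat.card Z) < lp q c * lp q c
  · exact ab_conj_one hc hq hs h2 (fun h hh => heq h hh.symm) hu.symm hw.symm
  exfalso
  have key : ∀ (s q : ℕ) [Fact s.Prime] [Fact q.Prime], s ≠ q → AB X Z s c → AB X Z q c →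
      (∀ h, El X Z s q h → ∃ v ∈ X ⊓ C h, PEl s v ∧ v ∉ Z) →
      (∀ h, El X Z s q h → ∃ v ∈ X ⊓ C h, PEl q v ∧ v ∉ Z) → El X Z s q u →
      lp s (Nat.card X) * lp q (Nat.card Z) < lp s c * lp q c := by
    intro s q _ _ hsq hs hq hes heq hu
    obtain ⟨S, hS⟩ := exists_sylIn s X
    have hcomm : ∀ z ∈ Z, ∀ g ∈ S, z * g = g * z := fun z hz g hg => hc.comm z hz g (hS.le hg)
    obtain ⟨u0, hu0, hu0s, hu0Z⟩ := hes u hu
    obtain ⟨a, haS, haZ, hag⟩ := exists_good hcomm hS.isPGroup (not_le_center hc hS hu0.1 hu0s hu0Z)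
    obtain ⟨v, hv, hvq, hvZ⟩ := heq a ⟨hS.le haS, haZ, Or.inl (PEl.of_mem hS.isPGroup haS)⟩
    exact ab_lt hsq hc hs hq hS ⟨haS, haZ, hag⟩ hv hvq hvZ
  have h3 := key s q hsq hs hq hes heq hu
  have h4 := key q s hsq.symm hq hs (fun h hh => heq h hh.symm) (fun h hh => hes h hh.symm) hu.symm
  have hzs := lp_pos hsp.out (Nat.card Z)
  have hzq := lp_pos hqp.out (Nat.card Z)
  have hcs := lp_pos hsp.out c
  have hcq := lp_pos hqp.out c
  push Not at h1 h2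
  generalize lp s (Nat.card X) = Xs at *
  generalize lp q (Nat.card X) = Xq at *
  generalize lp s (Nat.card Z) = zs at *
  generalize lp q (Nat.card Z) = zq at *
  generalize lp s c = cs at *
  generalize lp q c = cq at *
  -- cs * zq < cq * zs
  have h5 : cs * zq < cq * zs := by
    have h6 : cs * cs * zq ≤ Xs * zs * zq := Nat.mul_le_mul_right _ h1
    have h7 : Xs * zq * zs < cs * cq * zs := Nat.mul_lt_mul_of_pos_right h3 hzs
    have h8 : cs * (cs * zq) < cs * (cq * zs) := by nlinarith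
    exact Nat.lt_of_mul_lt_mul_left h8
  have h5' : cq * zs < cs * zq := by
    have h6 : cq * cq * zs ≤ Xq * zq * zs := Nat.mul_le_mul_right _ h2
    have h7 : Xq * zs * zq < cq * cs * zq := Nat.mul_lt_mul_of_pos_right h4 hzq
    have h8 : cq * (cq * zs) < cq * (cs * zq) := by nlinarith
    exact Nat.lt_of_mul_lt_mul_left h8
  omega

/-- relative covering lemma -/
theorem eq_of_cover {A X : Subgroup G} (hA : A ≤ X) (h : ∀ x ∈ X, ∃ g ∈ X, g⁻¹ * x * g ∈ A) : A = X := by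
  have h1 : A.subgroupOf X = ⊤ := by
    apply ConjCover.eq_top_of_forall_conj
    intro x
    obtain ⟨g, hg, hx⟩ := h x x.2
    exact ⟨⟨g, hg⟩, hx⟩
  exact le_antisymm hA (subgroupOf_eq_top.1 h1)

end Cfsg.Agent.Lib.H9Ito
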