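import Mathlib
import Cfsg.Agent.Lib.H9ItoB

/-!
(helper9) Three class sizes, nested case: first steps.
-/

set_option autoImplicit false
set_option linter.unusedSectionVars false

namespace Cfsg.Agent.Lib.H9Ito

open Subgroup Cfsg.Agent.Lib.CSP Cfsg.Agent.Lib.CFSylow

variable {G : Type*} [Group G] [Finite G]

/-- existence of `l`-elements outside `Z` -/
theorem exists_el_iff {l : ℕ} [Fact l.Prime] {X Z : Subgroup G} (hc : Cen X Z) :
    (∃ v ∈ X, PEl l v ∧ v ∉ Z) ↔ lp l (Nat.card Z) < lp l (Nat.card X) := by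
  obtain ⟨Q, hQ⟩ := exists_sylIn l X
  have h1 := syl_center hc hQ
  have h2 := SylIn.card' hQ
  constructor
  · rintro ⟨v, hv, hvl, hvZ⟩
    have h3 := not_le_center hc hQ hv hvl hvZ
    rw [← h1, ← h2]
    apply card_lt_of_lt
    refine lt_of_le_of_ne inf_le_left (fun h => h3 ?_)
    exact inf_eq_left.1 h
  · intro hlt
    have h3 : ¬ Q ≤ Z := by
      intro hle
      rw [inf_eq_left.2 hle] at h1
      omega
    obtain ⟨v, hv, hvZ⟩ := SetLike.not_le_iff_exists.1 h3
    exact ⟨v, hQ.le hv, PEl.of_mem hQ.isPGroup hv, hvZ⟩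

theorem cen_center (X : Subgroup G) (h : center G ≤ X) : Cen X (center G) :=
  ⟨h, fun z hz x _ => (mem_center_iff.1 hz x).symm⟩

theorem cen_C (x : G) : Cen (C x) (center G) := cen_center _ (CSP.center_le x)

/-- three sizes -/
structure Ctx (G : Type*) [Group G] [Finite G] (c1 c2 : ℕ) : Prop where
  lt : c1 < c2
  h : ∀ x : G, x ∉ center G → Nat.card (C x) = c1 ∨ Nat.card (C x) = c2
  third : ∀ s q : ℕ, ∃ l, l.Prime ∧ l ∣ (center G).index ∧ l ≠ s ∧ l ≠ q
  nest : ∃ x y : G, x ∉ center G ∧ y ∉ center G ∧ C x < C y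

variable {c1 c2 : ℕ}

theorem Ctx.card_of_lt (h : Ctx G c1 c2) {x y : G} (hx : x ∉ center G) (hy : y ∉ center G) (hxy : C x < C y) :
    Nat.card (C x) = c1 ∧ Nat.card (C y) = c2 := by
  have h1 := card_lt_of_lt hxy
  have h2 := h.lt
  rcases h.h x hx with h3 | h3 <;> rcases h.h y hy with h4 | h4 <;> omega

theorem Ctx.dvd (h : Ctx G c1 c2) : c1 ∣ c2 := by
  obtain ⟨x, y, hx, hy, hxy⟩ := h.nest
  obtain ⟨h1, h2⟩ := h.card_of_lt hx hy hxy
  rw [← h1, ← h2]; exact card_dvd_of_le hxy.le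

theorem Ctx.pos1 (h : Ctx G c1 c2) : 0 < c1 := by
  obtain ⟨x, y, hx, hy, hxy⟩ := h.nest
  obtain ⟨h1, h2⟩ := h.card_of_lt hx hy hxy
  rw [← h1]; exact Nat.card_pos

theorem Ctx.pos2 (h : Ctx G c1 c2) : 0 < c2 := by have := h.pos1; have := h.lt; omega

/-- minimality of type 1 -/
theorem Ctx.min (h : Ctx G c1 c2) {x : G} (hx : x ∉ center G) {K : Subgroup G} (hK : Nat.card K = c1) (hle : C x ≤ K) :
    C x = K := by
  have h1 := CFSylow.card_le_of_le hle
  have h2 := h.lt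
  rcases h.h x hx with h3 | h3
  · exact eq_of_le_of_card_le hle (by omega)
  · omega

/-- maximality of type 2 -/
theorem Ctx.max (h : Ctx G c1 c2) {x : G} (hx : x ∉ center G) {K : Subgroup G} (hK : Nat.card K = c2) (hle : K ≤ C x) :
    K = C x := by
  have h2 := h.lt
  rcases h.h x hx with h3 | h3
  · have h1 := CFSylow.card_le_of_le hle; omega
  · exact eq_of_le_of_card_le hle (by omega)

theorem el_of_lt {l : ℕ} [Fact l.Prime] {x : G} (h : lp l (Nat.card (center G)) < lp l (Nat.card (C x))) :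
    ∃ v ∈ C x, PEl l v ∧ v ∉ center G := (exists_el_iff (cen_C x)).2 h

/-- N1 -/
theorem Ctx.N1 (h : Ctx G c1 c2) {l : ℕ} [hl : Fact l.Prime] (hld : l ∣ (center G).index) {x : G} (hx : x ∉ center G) :
    ∃ v ∈ C x, PEl l v ∧ v ∉ center G := by
  have hkey : lp l (Nat.card (center G)) < lp l c1 := by
    by_contra hcon
    obtain ⟨x, y, hx, hy, hxy⟩ := h.nest
    obtain ⟨h1, h2⟩ := h.card_of_lt hx hy hxy
    obtain ⟨r, hr, y1, hy1, hy1c, hy1r⟩ := exists_prim _ y rfl hy
    have hrf : Fact r.Prime := ⟨hr⟩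
    have h3 : C y = C y1 := h.max hy1c h2 (C_le_of_mem_zpowers hy1)
    have hnone : ∀ w : G, Nat.card (C w) = c1 → ∀ v ∈ C w, PEl l v → v ∈ center G := by
      intro w hw v hv hvl
      by_contra hvc
      have := (exists_el_iff (cen_C w)).1 ⟨v, hv, hvl, hvc⟩
      rw [hw] at this
      exact hcon this
    have hxCx : x ∈ C x := self_mem x
    have hy1x : y1 ∈ C x := mem_C_comm.1 (h3 ▸ hxy.le hxCx)
    have hrl : r ≠ l := by
      rintro rfl
      exact hy1c (hnone x h1 y1 hy1x hy1r)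
    -- a noncentral l-element
    obtain ⟨g0, -, hg0c, hg0⟩ := exists_rel (H := (⊤ : Subgroup G)) hl.out (by rw [relIndex_top_right]; exact hld)
    have hg02 : Nat.card (C g0) = c2 := by
      rcases h.h g0 hg0c with h4 | h4
      · exact absurd (hnone g0 h4 g0 (self_mem g0) hg0) hg0c
      · exact h4
    have h4 := (exists_el_iff (cen_C g0)).1 ⟨g0, self_mem g0, hg0, hg0c⟩
    rw [hg02, ← h2, h3] at h4
    obtain ⟨g, hg, hgl, hgc⟩ := el_of_lt h4
    have hcomm : y1 * g = g * y1 := (mem_C.1 hg).symm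
    have hco : (orderOf y1).Coprime (orderOf g) := PEl.coprime2 hr hl.out hrl hy1r hgl
    have h5 := mul_notMem_center hcomm hco hy1c
    have h6 : Nat.card (C (y1 * g)) = c2 := by
      rcases h.h _ h5 with h7 | h7
      · refine absurd (hnone _ h7 g ?_ hgl) hgc
        rw [C_mul hcomm hco]
        exact ⟨hg, self_mem g⟩
      · exact h7
    have h7 : C (y1 * g) = C y1 := h.max hy1c h6 (by rw [C_mul hcomm hco]; exact inf_le_left)
    rw [C_mul hcomm hco, inf_eq_left] at h7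
    have h8 : g ∈ C x := mem_C_comm.1 (h7 (h3 ▸ hxy.le hxCx))
    exact hgc (hnone x h1 g h8 hgl)
  apply el_of_lt
  rcases h.h x hx with h1 | h1
  · rw [h1]; exact hkey
  · rw [h1]; exact lt_of_lt_of_le hkey (lp_le_of_dvd hl.out h.pos2.ne' h.dvd)

/-- Frattini: an invariant Sylow subgroup -/
theorem inv_syl {s q : ℕ} [hs : Fact s.Prime] [hq : Fact q.Prime] {S N : Subgroup G} (hSN : S ≤ normalizer (N : Set G))
    (hS : IsPGroup s S) {T : Subgroup G} (hT : SylIn s T N) (hTQ : ∀ Q, SylIn q Q N → T ≤ normalizer (Q : Set G)) :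
    ∃ Q, SylIn q Q N ∧ S ≤ normalizer (Q : Set G) := by
  obtain ⟨Q0, hQ0⟩ := exists_sylIn q N
  set X := S ⊔ N with hX
  have hNX : N ≤ X := le_sup_right
  have hXN : X ≤ normalizer (N : Set G) := sup_le hSN le_normalizer
  set Y := X ⊓ normalizer (Q0 : Set G) with hY
  have hfr : ∀ x : X, ∃ n ∈ N, ∃ m ∈ Y, (x : G) = n * m := fun x => frattini hQ0 hNX hXN x.2
  choose n hn m hm hnm using hfr
  have h1 : Nat.card X * Nat.card (N ⊓ Y : Subgroup G) ≤ Nat.card N * Nat.card Y := by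
    rw [← Nat.card_prod, ← Nat.card_prod]
    refine Nat.card_le_card_of_injective
      (fun p : X × (N ⊓ Y : Subgroup G) => ((⟨n p.1 * p.2, mul_mem (hn _) p.2.2.1⟩ : N),
        (⟨(p.2 : G)⁻¹ * m p.1, mul_mem (inv_mem p.2.2.2) (hm _)⟩ : Y))) ?_
    rintro ⟨x, d⟩ ⟨x', d'⟩ he
    have e1 : n x * d = n x' * d' := congrArg (fun z : N × Y => (z.1 : G)) he
    have e2 : (d : G)⁻¹ * m x = (d' : G)⁻¹ * m x' := congrArg (fun z : N × Y => (z.2 : G)) he
    have e3 : x = x' := by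
      apply Subtype.ext
      rw [hnm x, hnm x']
      calc n x * m x = (n x * d) * ((d : G)⁻¹ * m x) := by group
        _ = n x' * m x' := by rw [e1, e2]; group
    subst e3
    exact Prod.ext rfl (Subtype.ext (mul_left_cancel e1))
  have h2 := card_mul_le (S := X) (A := N) (B := Y) hNX inf_le_left
  have h3 : Nat.card X * Nat.card (N ⊓ Y : Subgroup G) = Nat.card N * Nat.card Y := le_antisymm h1 h2
  have hTY : T ≤ N ⊓ Y := le_inf hT.le (le_inf (hT.le.trans hNX) (hTQ Q0 hQ0))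
  have h4 : lp s (Nat.card (N ⊓ Y : Subgroup G)) = lp s (Nat.card N) := by
    apply le_antisymm (lp_le_of_dvd hs.out Nat.card_pos.ne' (card_dvd_of_le inf_le_left))
    have h5 := SylIn.card' (hT.of_le hTY inf_le_left)
    rw [← h5, SylIn.card' hT]
  have h5 := congrArg (lp s) h3
  rw [lp_mul Nat.card_pos.ne' Nat.card_pos.ne', lp_mul Nat.card_pos.ne' Nat.card_pos.ne', h4, mul_comm] at h5
  have h6 := Nat.eq_of_mul_eq_mul_left (lp_pos hs.out _) h5
  obtain ⟨R, hR⟩ := exists_sylIn s Y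
  obtain ⟨S', hS', hSS'⟩ := exists_sylIn_ge hS (le_sup_left : S ≤ X)
  have hRX : SylIn s R X := hS'.of_card hR.isPGroup (hR.le.trans inf_le_left) (by
    rw [SylIn.card' hS', SylIn.card' hR, h6])
  obtain ⟨x, hx, hxR⟩ := hRX.exists_conj_eq hS'
  have hxN : cj x N = N := CFSylow.mem_normalizer.1 (hXN hx)
  refine ⟨cj x Q0, hxN ▸ hQ0.conj x, ?_⟩
  rw [← cj_normalizer]
  refine hSS'.trans (hxR ▸ cj_mono (hR.le.trans inf_le_right))

/-- general primary decomposition: if all primary parts of `x` lie in `K` then `x ∈ K` -/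
theorem exists_prim' (K : Subgroup G) : ∀ (N : ℕ) (y : G), orderOf y = N → y ∉ K →
    ∃ p : ℕ, p.Prime ∧ ∃ u ∈ zpowers y, u ∉ K ∧ PEl p u := by
  intro N
  induction N using Nat.strong_induction_on with
  | _ N ih =>
    intro y hN hy
    have h1 : orderOf y ≠ 1 := by
      intro h0
      rw [orderOf_eq_one_iff] at h0
      exact hy (h0 ▸ one_mem _)
    obtain ⟨p, hp, hpd⟩ := Nat.exists_prime_and_dvd h1
    obtain ⟨u, v, huv, -, hu, hv, ⟨a, ha⟩, hco⟩ := parts hp y
    by_cases huc : u ∈ K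
    · have hvc : v ∉ K := fun hvc => hy (huv ▸ mul_mem huc hvc)
      have hlt : orderOf v < N := by
        have h2 : orderOf v ∣ orderOf y := orderOf_dvd_of_mem_zpowers hv
        have h3 : orderOf v ≤ orderOf y := Nat.le_of_dvd (orderOf_pos y) h2
        rcases lt_or_eq_of_le h3 with h4 | h4
        · rw [← hN]; exact h4
        · rw [h4] at hco
          exact absurd ((Nat.Prime.coprime_iff_not_dvd hp).1 hco.symm) (by simpa using hpd)
      obtain ⟨q, hq, w, hw, h5⟩ := ih _ hlt v rfl hvc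
      exact ⟨q, hq, w, (zpowers_le.2 hv) hw, h5⟩
    · exact ⟨p, hp, u, hu, huc, a, ha⟩

/-- direct product structure of `C w` when all centralizers have the same `s`-part -/
theorem dp {s cs : ℕ} [hs : Fact s.Prime] (hsame : ∀ x : G, x ∉ center G → lp s (Nat.card (C x)) = cs)
    {w : G} (hw : w ∉ center G) (hws : PEl s w) :
    ∃ T, SylIn s T (C w) ∧ (∀ a ∈ C w, PEl s a → a ∈ T) ∧
      ∀ a ∈ C w, PEl s a → ∀ v ∈ C w, (orderOf v).Coprime s → a * v = v * a := by
  obtain ⟨T, hT⟩ := exists_sylIn s (C w)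
  -- every `s'`-element centralizes some Sylow subgroup
  have h1 : ∀ v ∈ C w, (orderOf v).Coprime s → ∀ T', SylIn s T' (C w ⊓ C v) → SylIn s T' (C w) := by
    intro v hv hvs T' hT'
    have hcomm : w * v = v * w := (mem_C.1 hv).symm
    have hco : (orderOf w).Coprime (orderOf v) := hws.coprime hs.out hvs
    have h2 := hsame _ (mul_notMem_center hcomm hco hw)
    rw [C_mul hcomm hco] at h2
    exact hT.of_card hT'.isPGroup (hT'.le.trans inf_le_left) (by
      rw [SylIn.card' hT, SylIn.card' hT', hsame w hw, h2])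
  set A := T ⊔ (C w ⊓ centralizer (T : Set G)) with hA
  have hAX : A = C w := by
    apply eq_of_cover (sup_le hT.le inf_le_left)
    intro x hx
    obtain ⟨u, v, huv, -, hu, hv, hus, hvs⟩ := parts hs.out x
    have hux : u ∈ C w := (zpowers_le.2 hx) hu
    have hvx : v ∈ C w := (zpowers_le.2 hx) hv
    have huv' : u ∈ C v := by
      obtain ⟨i, hi⟩ := mem_zpowers_iff.1 hu
      obtain ⟨j, hj⟩ := mem_zpowers_iff.1 hv
      rw [mem_C, ← hi, ← hj, ← zpow_add, ← zpow_add, add_comm]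
    obtain ⟨T2, hT2, huT2⟩ := exists_sylIn_ge (PEl.isPGroup (p := s) hus) (zpowers_le.2 (show u ∈ C w ⊓ C v from ⟨hux, huv'⟩))
    have h3 := h1 v hvx hvs T2 hT2
    obtain ⟨g, hg, hgT⟩ := hT.exists_conj_eq h3
    refine ⟨g, hg, ?_⟩
    have h4 : g⁻¹ * u * g ∈ T := by rw [← mem_cj, hgT]; exact huT2 (mem_zpowers u)
    have h5 : g⁻¹ * v * g ∈ C w ⊓ centralizer (T : Set G) := by
      rw [mem_inf]
      refine ⟨mul_mem (mul_mem (inv_mem hg) hvx) hg, ?_⟩
      rw [Subgroup.mem_centralizer_iff]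
      intro t ht
      have h6 : g * t * g⁻¹ ∈ T2 := by rw [← hgT]; exact conj_mem_cj ht
      have h7 := mem_C.1 (hT2.le h6).2
      calc t * (g⁻¹ * v * g) = g⁻¹ * ((g * t * g⁻¹) * v) * g := by group
        _ = g⁻¹ * v * g * t := by rw [h7]; group
    have h6 : g⁻¹ * x * g = (g⁻¹ * u * g) * (g⁻¹ * v * g) := by rw [← huv]; group
    rw [h6]
    exact mul_mem (mem_sup_left h4) (mem_sup_right h5)
  have hnorm : C w ≤ normalizer (T : Set G) := by
    rw [← hAX]
    exact sup_le le_normalizer (inf_le_right.trans (CFSylow.centralizer_le_normalizer T))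
  have huniq : ∀ a ∈ C w, PEl s a → a ∈ T := by
    intro a ha has
    obtain ⟨x, hx, hxT⟩ := hT.exists_conj_le has.isPGroup (zpowers_le.2 ha)
    have h2 : x * a * x⁻¹ ∈ T := hxT (conj_mem_cj (mem_zpowers a))
    have h3 := (Subgroup.mem_normalizer_iff.1 (hnorm hx) a).2 h2
    exact h3
  refine ⟨T, hT, huniq, ?_⟩
  intro a ha has v hv hvs
  obtain ⟨T2, hT2⟩ := exists_sylIn s (C w ⊓ C v)
  have h3 := h1 v hv hvs T2 hT2
  have h4 : T2 ≤ T := fun t ht => huniq t (h3.le ht) (PEl.of_mem h3.isPGroup ht)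
  have h5 : T2 = T := eq_of_le_of_card_le h4 (by rw [SylIn.card' hT, SylIn.card' h3])
  have h6 := huniq a ha has
  rw [← h5] at h6
  exact mem_C.1 (hT2.le h6).2

end Cfsg.Agent.Lib.H9Ito
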