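import Mathlib
import Cfsg.Agent.Lib.H9ItoC
import Cfsg.Agent.Lib.FrobAction2

/-!
(helper16) The `q`-group piece for groups with three class sizes.
-/

set_option autoImplicit false
set_option linter.unusedSectionVars false

namespace Cfsg.Agent.H16ItoQ

open Subgroup Cfsg.Agent.Lib.CSP Cfsg.Agent.Lib.CFSylow Cfsg.Agent.Lib.H9Ito

variable {G : Type*} [Group G] [Finite G]

/-- conjugation action on a quotient by the center -/
noncomputable def act0 (Q S : Subgroup G) (hSn : ∀ g ∈ Q, ∀ v ∈ S, g * v * g⁻¹ ∈ S)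
    (hN : ((center G).subgroupOf S).Normal) : Q →* MulAut (S ⧸ (center G).subgroupOf S) :=
  let f : Q → S ⧸ (center G).subgroupOf S → S ⧸ (center G).subgroupOf S := fun g =>
    Quotient.map' (fun v : S => (⟨(g : G) * v * (g : G)⁻¹, hSn g g.2 v v.2⟩ : S)) (by
      intro x y hxy
      rw [QuotientGroup.leftRel_apply] at hxy ⊢
      rw [mem_subgroupOf] at hxy ⊢
      have h1 : ((⟨(g : G) * x * (g : G)⁻¹, hSn g g.2 x x.2⟩⁻¹ * ⟨(g : G) * y * (g : G)⁻¹, hSn g g.2 y y.2⟩ : S) : G) =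
          g * ((x⁻¹ * y : S) : G) * (g : G)⁻¹ := by push_cast; group
      rw [h1]
      exact (inferInstance : (center G).Normal).conj_mem _ hxy _)
  { toFun := fun g =>
      { toFun := f g
        invFun := f g⁻¹
        left_inv := by
          intro x
          induction x using QuotientGroup.induction_on with
          | H x => 
            refine congrArg QuotientGroup.mk (Subtype.ext ?_)
            simp [mul_assoc]
        right_inv := by
          intro x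
          induction x using QuotientGroup.induction_on with
          | H x => 
            refine congrArg QuotientGroup.mk (Subtype.ext ?_)
            simp [mul_assoc]
        map_mul' := by
          intro x y
          induction x using QuotientGroup.induction_on with
          | H x => 
          induction y using QuotientGroup.induction_on with
          | H y => 
            refine congrArg QuotientGroup.mk (Subtype.ext ?_)
            simp [mul_assoc] }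
    map_one' := by
      ext x
      induction x using QuotientGroup.induction_on with
      | H x => 
        refine congrArg QuotientGroup.mk (Subtype.ext ?_)
        simp
    map_mul' := by
      intro g h
      ext x
      induction x using QuotientGroup.induction_on with
      | H x => 
        refine congrArg QuotientGroup.mk (Subtype.ext ?_)
        simp [mul_assoc] }

theorem act0_mk (Q S : Subgroup G) (hSn : ∀ g ∈ Q, ∀ v ∈ S, g * v * g⁻¹ ∈ S)
    (hN : ((center G).subgroupOf S).Normal) (g : Q) (v : S) :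
    act0 Q S hSn hN g (QuotientGroup.mk v) = QuotientGroup.mk ⟨(g : G) * v * (g : G)⁻¹, hSn g g.2 v v.2⟩ := rfl

theorem center_mul {z x : G} (hz : z ∈ center G) : z * x = x * z := (mem_center_iff.1 hz x).symm

theorem key {s q : ℕ} [hs : Fact s.Prime] [hq : Fact q.Prime] (hsq : s ≠ q) {g v z : G} (hz : z ∈ center G)
    (hg : PEl q g) (hzs : PEl s z) (he : g * v * g⁻¹ = v * z) : g * v = v * g := by
  have h1 : ∀ n : ℕ, g ^ n * v * (g ^ n)⁻¹ = v * z ^ n := by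
    intro n
    induction n with
    | zero => simp
    | succ n ih =>
      have h2 : g ^ (n + 1) * v * (g ^ (n + 1))⁻¹ = g * (g ^ n * v * (g ^ n)⁻¹) * g⁻¹ := by
        rw [pow_succ']; group
      have h3 : g * z ^ n * g⁻¹ = z ^ n := by
        rw [← center_mul (pow_mem hz n), mul_assoc, mul_inv_cancel, mul_one]
      rw [h2, ih]
      calc g * (v * z ^ n) * g⁻¹ = (g * v * g⁻¹) * (g * z ^ n * g⁻¹) := by group
        _ = v * z ^ (n + 1) := by rw [he, h3, mul_assoc, ← pow_succ']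
  obtain ⟨a, ha⟩ := hg
  have h2 := h1 (orderOf g)
  rw [pow_orderOf_eq_one, one_mul, inv_one, mul_one, left_eq_mul] at h2
  have h3 : orderOf z ∣ q ^ a := ha ▸ orderOf_dvd_of_pow_eq_one h2
  obtain ⟨b, hb⟩ := hzs
  have h4 : orderOf z = 1 := by
    have h5 : (q ^ a).Coprime (s ^ b) := ((Nat.coprime_primes hq.out hs.out).2 hsq.symm).pow a b
    exact Nat.eq_one_of_dvd_coprimes h5 h3 (hb ▸ dvd_rfl)
  rw [orderOf_eq_one_iff] at h4
  rw [h4, mul_one] at he
  exact mul_inv_eq_iff_eq_mul.1 he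

/-- cyclic quotient -/
theorem exists_gen {s q : ℕ} [Fact s.Prime] [Fact q.Prime] (hsq : s ≠ q) {Q S A : Subgroup G}
    (hQ : IsPGroup q Q) (hS : IsPGroup s S) (hSn : ∀ g ∈ Q, ∀ v ∈ S, g * v * g⁻¹ ∈ S)
    (hScomm : ∀ x ∈ S, ∀ y ∈ S, x * y = y * x)
    (hSA : ∀ g ∈ Q, g ∈ A → ∀ v ∈ S, g * v = v * g)
    (hfix : ∀ g ∈ Q, ∀ v ∈ S, v ∉ center G → g * v = v * g → g ∈ A)
    (hcomm : ∀ x ∈ Q, ∀ y ∈ Q, x * y * x⁻¹ * y⁻¹ ∈ A)
    (hne : ¬ S ≤ center G) : ∃ g ∈ Q, ∀ x ∈ Q, ∃ i : ℕ, ∃ a ∈ Q, a ∈ A ∧ x = a * g ^ i := by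
  have hN : ((center G).subgroupOf S).Normal := by
    refine ⟨fun n hn g => ?_⟩
    rw [mem_subgroupOf] at hn ⊢
    push_cast
    exact (inferInstance : (center G).Normal).conj_mem _ hn _
  set V := S ⧸ (center G).subgroupOf S with hV
  letI : CommGroup V := { (QuotientGroup.Quotient.group ((center G).subgroupOf S) : Group V) with
    mul_comm := by
      intro x y
      induction x using QuotientGroup.induction_on with
      | H x => 
      induction y using QuotientGroup.induction_on with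
      | H y => 
        exact congrArg QuotientGroup.mk (Subtype.ext (hScomm x x.2 y y.2)) }
  have hVn : Nontrivial V := by
    obtain ⟨v, hv, hvc⟩ := SetLike.not_le_iff_exists.1 hne
    refine ⟨QuotientGroup.mk (⟨v, hv⟩ : S), 1, fun h => hvc ?_⟩
    exact (QuotientGroup.eq_one_iff (⟨v, hv⟩ : S)).1 h
  let act := act0 Q S hSn hN
  have hfpf : ∀ g : Q, ∀ v : V, act g v = v → v ≠ 1 → (g : G) ∈ A := by
    intro g v
    induction v using QuotientGroup.induction_on with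
    | H v => 
      intro h1 h2
      have hv : (v : G) ∉ center G := fun h => h2 ((QuotientGroup.eq_one_iff v).2 h)
      apply hfix g g.2 v v.2 hv
      have h3 : (QuotientGroup.mk v : S ⧸ (center G).subgroupOf S) =
        QuotientGroup.mk ⟨(g : G) * v * (g : G)⁻¹, hSn g g.2 v v.2⟩ := h1.symm
      rw [QuotientGroup.eq, mem_subgroupOf] at h3
      refine key hsq (z := (v : G)⁻¹ * (g * v * (g : G)⁻¹)) (by simpa using h3) (PEl.of_mem hQ g.2)
        (PEl.of_mem hS (mul_mem (inv_mem v.2) (hSn g g.2 v v.2))) (by group)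
  have htriv : ∀ g : Q, (g : G) ∈ A → act g = 1 := by
    intro g hg
    ext v
    induction v using QuotientGroup.induction_on with
    | H v => 
      refine congrArg QuotientGroup.mk (Subtype.ext ?_)
      change (g : G) * v * (g : G)⁻¹ = v
      rw [hSA g g.2 hg v v.2, mul_inv_cancel_right]
  have hcyc : IsCyclic act.range := by
    refine Cfsg.Agent.Lib.FrobAction.isCyclic_of_comm (V := V) (act := act.range.subtype) ?_ ?_
    · rintro ⟨_, g, rfl⟩ hg v hv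
      by_contra hv1
      apply hg
      apply Subtype.ext
      exact htriv g (hfpf g v hv hv1)
    · rintro ⟨_, g, rfl⟩ ⟨_, h, rfl⟩
      apply Subtype.ext
      have h1 := htriv (g * h * g⁻¹ * h⁻¹) (hcomm g g.2 h h.2)
      change act g * act h = act h * act g
      rw [map_mul, map_mul, map_mul, map_inv, map_inv, mul_inv_eq_one, mul_inv_eq_iff_eq_mul] at h1
      exact h1
  obtain ⟨⟨_, g, rfl⟩, hgen⟩ := hcyc.exists_generator
  refine ⟨g, g.2, fun x hx => ?_⟩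
  have h1 := hgen ⟨act ⟨x, hx⟩, ⟨x, hx⟩, rfl⟩
  rw [← mem_powers_iff_mem_zpowers] at h1
  obtain ⟨i, hi⟩ := h1
  have h2 : act g ^ i = act ⟨x, hx⟩ := congrArg Subtype.val hi
  obtain ⟨v, hv⟩ := exists_ne (1 : V)
  have h3 := hfpf (⟨x, hx⟩ * (g ^ i)⁻¹) v (by
    rw [map_mul, map_inv, map_pow, ← h2, mul_inv_cancel]; rfl) hv
  exact ⟨i, x * ((g : G) ^ i)⁻¹, mul_mem hx (inv_mem (pow_mem g.2 i)), h3, by group⟩


/-- the commutator with a good element -/
noncomputable def phi (Q : Subgroup G) (u : G) (hu : ∀ g ∈ Q, u⁻¹ * (g * u * g⁻¹) ∈ center G) : Q →* center G :=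
  MonoidHom.mk' (fun g => ⟨u⁻¹ * (g * u * (g : G)⁻¹), hu g g.2⟩) (by
    intro g h
    apply Subtype.ext
    change u⁻¹ * ((g * h : Q) * u * ((g * h : Q) : G)⁻¹) = (u⁻¹ * (g * u * (g : G)⁻¹)) * (u⁻¹ * (h * u * (h : G)⁻¹))
    have h1 := center_mul (x := (g : G)⁻¹) (hu h h.2)
    have h2 : u⁻¹ * ((g * h : Q) * u * ((g * h : Q) : G)⁻¹) =
        u⁻¹ * (g * u * ((u⁻¹ * (h * u * (h : G)⁻¹)) * (g : G)⁻¹)) := by push_cast; group
    rw [h2, h1]; group)

theorem phi_apply (Q : Subgroup G) (u : G) (hu : ∀ g ∈ Q, u⁻¹ * (g * u * g⁻¹) ∈ center G) (g : Q) :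
    ((phi Q u hu g : center G) : G) = u⁻¹ * (g * u * (g : G)⁻¹) := rfl

theorem phi_one_iff (Q : Subgroup G) (u : G) (hu : ∀ g ∈ Q, u⁻¹ * (g * u * g⁻¹) ∈ center G) (g : Q) :
    phi Q u hu g = 1 ↔ (g : G) ∈ C u := by
  rw [← Subtype.coe_inj, phi_apply, OneMemClass.coe_one, mem_C, inv_mul_eq_one, eq_mul_inv_iff_mul_eq]
  exact eq_comm

theorem comm_mem (Q : Subgroup G) (u : G) (hu : ∀ g ∈ Q, u⁻¹ * (g * u * g⁻¹) ∈ center G) {x y : G} (hx : x ∈ Q)
    (hy : y ∈ Q) : x * y * x⁻¹ * y⁻¹ ∈ C u := by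
  have h1 := (phi_one_iff Q u hu (⟨x, hx⟩ * ⟨y, hy⟩ * ⟨x, hx⟩⁻¹ * ⟨y, hy⟩⁻¹)).1 (by
    rw [map_mul, map_mul, map_mul, map_inv, map_inv]
    have h2 : phi Q u hu ⟨x, hx⟩ * phi Q u hu ⟨y, hy⟩ = phi Q u hu ⟨y, hy⟩ * phi Q u hu ⟨x, hx⟩ :=
      Subtype.ext (center_mul (phi Q u hu ⟨x, hx⟩).2)
    rw [h2]; group)
  exact h1

/-- `a ↦ [a, g]` on an abelian normal subgroup -/
noncomputable def psi (A : Subgroup G) (g : G) (hA : ∀ x ∈ A, ∀ y ∈ A, x * y = y * x) (hg : ∀ x ∈ A, g * x * g⁻¹ ∈ A) :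
    A →* G :=
  MonoidHom.mk' (fun a => a * (g * (a : G)⁻¹ * g⁻¹)) (by
    intro a b
    have h1 := hA _ (hg _ (inv_mem a.2)) b b.2
    have h2 := hA _ (hg _ (inv_mem a.2)) _ (hg _ (inv_mem b.2))
    calc ((a * b : A) : G) * (g * ((a * b : A) : G)⁻¹ * g⁻¹)
        = a * (b * ((g * (b : G)⁻¹ * g⁻¹) * (g * (a : G)⁻¹ * g⁻¹))) := by push_cast; group
      _ = a * (b * ((g * (a : G)⁻¹ * g⁻¹) * (g * (b : G)⁻¹ * g⁻¹))) := by rw [h2]
      _ = a * ((b * (g * (a : G)⁻¹ * g⁻¹)) * (g * (b : G)⁻¹ * g⁻¹)) := by group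
      _ = a * (((g * (a : G)⁻¹ * g⁻¹) * b) * (g * (b : G)⁻¹ * g⁻¹)) := by rw [h1]
      _ = a * (g * (a : G)⁻¹ * g⁻¹) * (b * (g * (b : G)⁻¹ * g⁻¹)) := by group)

theorem psi_apply (A : Subgroup G) (g : G) (hA : ∀ x ∈ A, ∀ y ∈ A, x * y = y * x) (hg : ∀ x ∈ A, g * x * g⁻¹ ∈ A)
    (a : A) : psi A g hA hg a = a * (g * (a : G)⁻¹ * g⁻¹) := rfl

theorem psi_range_le (A : Subgroup G) (g : G) (hA : ∀ x ∈ A, ∀ y ∈ A, x * y = y * x) (hg : ∀ x ∈ A, g * x * g⁻¹ ∈ A) :
    (psi A g hA hg).range ≤ A := by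
  rintro _ ⟨a, rfl⟩
  rw [psi_apply]
  exact mul_mem a.2 (hg _ (inv_mem a.2))

theorem psi_pow (A : Subgroup G) (g : G) (hA : ∀ x ∈ A, ∀ y ∈ A, x * y = y * x) (hg : ∀ x ∈ A, g * x * g⁻¹ ∈ A) (i : ℕ)
    {a : G} (ha : a ∈ A) : g ^ i * a * (g ^ i)⁻¹ ∈ A ∧ a⁻¹ * (g ^ i * a * (g ^ i)⁻¹) ∈ (psi A g hA hg).range := by
  induction i with
  | zero => simpa using ha
  | succ i ih =>
    obtain ⟨h1, h2⟩ := ih
    have h3 : g ^ (i + 1) * a * (g ^ (i + 1))⁻¹ = g * (g ^ i * a * (g ^ i)⁻¹) * g⁻¹ := by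
      rw [pow_succ']; group
    rw [h3]
    refine ⟨hg _ h1, ?_⟩
    set c := g ^ i * a * (g ^ i)⁻¹ with hc
    have h4 : c⁻¹ * (g * c * g⁻¹) ∈ (psi A g hA hg).range := ⟨⟨c⁻¹, inv_mem h1⟩, by
      rw [psi_apply, inv_inv]⟩
    have h5 : a⁻¹ * (g * c * g⁻¹) = (a⁻¹ * c) * (c⁻¹ * (g * c * g⁻¹)) := by group
    rw [h5]
    exact mul_mem h2 h4

/-- commutators of `A⟨g⟩` lie in `[A,g]` -/
theorem comm_range (A : Subgroup G) (g : G) (hA : ∀ x ∈ A, ∀ y ∈ A, x * y = y * x) (hg : ∀ x ∈ A, g * x * g⁻¹ ∈ A)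
    {a b : G} (ha : a ∈ A) (hb : b ∈ A) (i j : ℕ) :
    (a * g ^ i) * (b * g ^ j) * (a * g ^ i)⁻¹ * (b * g ^ j)⁻¹ ∈ (psi A g hA hg).range := by
  obtain ⟨h1, h2⟩ := psi_pow A g hA hg i hb
  obtain ⟨h3, h4⟩ := psi_pow A g hA hg j (inv_mem ha)
  set c := g ^ i * b * (g ^ i)⁻¹ with hc
  set d := g ^ j * a⁻¹ * (g ^ j)⁻¹ with hd
  have hcm : g ^ i * g ^ j = g ^ j * g ^ i := by rw [← pow_add, ← pow_add, add_comm]
  have h5 : (a * g ^ i) * (b * g ^ j) * (a * g ^ i)⁻¹ * (b * g ^ j)⁻¹ = a * c * d * b⁻¹ := by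
    have e1 : (a * g ^ i) * (b * g ^ j) * (a * g ^ i)⁻¹ * (b * g ^ j)⁻¹ =
        a * (g ^ i * b * (g ^ i)⁻¹) * (g ^ i * g ^ j) * (g ^ i)⁻¹ * a⁻¹ * (g ^ j)⁻¹ * b⁻¹ := by group
    rw [e1, hcm, hc, hd]; group
  rw [h5]
  have h6 : a * c * d * b⁻¹ = (b⁻¹ * c) * (a⁻¹⁻¹ * d) := by
    have e1 := hA _ (mul_mem (mul_mem ha h1) h3) _ (inv_mem hb)
    rw [e1, inv_inv]
    have e2 := hA a ha c h1
    rw [e2]; group
  rw [h6]
  exact mul_mem h2 h4

theorem qpiece {s q : ℕ} [hsp : Fact s.Prime] [hqp : Fact q.Prime] (hsq : s ≠ q) {Q : Subgroup G} (hQ : SylIn q Q ⊤)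
    {u b : G} (hu : Good Q (center G) u) (hb : b ∈ Q) (hbZ : b ∉ center G)
    (hA : ∀ x ∈ C u, ∀ y ∈ C u, x * y = y * x) (hB : ∀ x ∈ C b, ∀ y ∈ C b, x * y = y * x)
    (hA1 : ∀ x ∈ C u, (PEl s x ∨ PEl q x) → x ∉ center G → C x = C u)
    (hB1 : ∀ x ∈ C b, (PEl s x ∨ PEl q x) → x ∉ center G → C x = C b)
    (hsA : ∃ x ∈ C u, PEl s x ∧ x ∉ center G)
    (hT : Nat.card (Q ⊓ C b : Subgroup G) = Nat.card (Q ⊓ C u : Subgroup G)) (hne : C u ≠ C b) :
    ∀ g ∈ Q, b⁻¹ * (g * b * g⁻¹) ∈ center G := by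
  have hQp : IsPGroup q Q := hQ.isPGroup
  have hQn : Q ≤ normalizer ((C u : Subgroup G) : Set G) := by
    have h1 := Good.norm (X := ⊤) (cen_center ⊤ le_top) le_top hu
    rwa [top_inf_eq] at h1
  obtain ⟨S, hS⟩ := exists_sylIn s (C u)
  have hSn : ∀ g ∈ Q, ∀ v ∈ S, g * v * g⁻¹ ∈ S := Cfsg.Agent.Lib.CFSylow.le_normalizer_iff.1 (hQn.trans (ab_inv hA hS))
  have hSnc : ¬ S ≤ center G := by
    obtain ⟨x, hx, hxs, hxc⟩ := hsA
    exact not_le_center (cen_C u) hS hx hxs hxc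
  obtain ⟨g, hg, hgen⟩ := exists_gen hsq (A := C u) hQp hS.isPGroup hSn
    (fun x hx y hy => hA x (hS.le hx) y (hS.le hy))
    (fun g _ hgu v hv => hA g hgu v (hS.le hv))
    (fun g _ v hv hvc he => by
      rw [← hA1 v (hS.le hv) (Or.inl (PEl.of_mem hS.isPGroup hv)) hvc]
      exact mem_C.2 he)
    (fun x hx y hy => comm_mem Q u hu.2.2 hx hy) hSnc
  set Aq : Subgroup G := Q ⊓ C u with hAq
  have hAqc : ∀ x ∈ Aq, ∀ y ∈ Aq, x * y = y * x := fun x hx y hy => hA x hx.2 y hy.2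
  have hAqg : ∀ x ∈ Aq, g * x * g⁻¹ ∈ Aq := fun x hx =>
    ⟨mul_mem (mul_mem hg hx.1) (Q.inv_mem hg), Cfsg.Agent.Lib.CFSylow.le_normalizer_iff.1 hQn g hg x hx.2⟩
  set K : Subgroup G := (psi Aq g hAqc hAqg).range with hK
  have hcomm : ∀ x ∈ Q, ∀ y ∈ Q, x * y * x⁻¹ * y⁻¹ ∈ K := by
    intro x hx y hy
    obtain ⟨i, a, ha, ha', rfl⟩ := hgen x hx
    obtain ⟨j, b, hb, hb', rfl⟩ := hgen y hy
    exact comm_range Aq g hAqc hAqg ⟨ha, ha'⟩ ⟨hb, hb'⟩ i j
  have hcomm' : ∀ x ∈ Q, ∀ y ∈ Q, x⁻¹ * (y * x * y⁻¹) ∈ K := by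
    intro x hx y hy
    have := hcomm x⁻¹ (inv_mem hx) y hy
    have h1 : x⁻¹ * (y * x * y⁻¹) = x⁻¹ * y * x⁻¹⁻¹ * y⁻¹ := by group
    rw [h1]; exact this
  -- numbers
  have hker : Nat.card (Q ⊓ center G : Subgroup G) ≤ Nat.card (psi Aq g hAqc hAqg).ker := by
    apply Nat.card_le_card_of_injective (fun z : (Q ⊓ center G : Subgroup G) =>
      (⟨⟨z, ⟨z.2.1, center_le u z.2.2⟩⟩, by
        rw [MonoidHom.mem_ker, psi_apply]
        have h1 := center_mul (x := g⁻¹) (inv_mem z.2.2)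
        change (z : G) * (g * (z : G)⁻¹ * g⁻¹) = 1
        rw [mul_assoc g, h1]; group⟩ : (psi Aq g hAqc hAqg).ker))
    intro z w hzw
    have := congrArg (fun x : (psi Aq g hAqc hAqg).ker => ((x : Aq) : G)) hzw
    exact Subtype.ext this
  have hcK : Nat.card K * Nat.card (psi Aq g hAqc hAqg).ker = Nat.card Aq := by
    rw [hK, ← Subgroup.index_ker, mul_comm]; exact Subgroup.card_mul_index _
  have hρ : (C b).relIndex Q ≤ Nat.card K := by
    have h1 : Nat.card (Q ⧸ (C b).subgroupOf Q) ≤ Nat.card K := by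
      apply Nat.card_le_card_of_injective (fun c : Q ⧸ (C b).subgroupOf Q =>
        (⟨b⁻¹ * ((c.out : G) * b * (c.out : G)⁻¹), hcomm' b hb _ c.out.2⟩ : K))
      intro c d hcd
      have h2 : b⁻¹ * ((c.out : G) * b * (c.out : G)⁻¹) = b⁻¹ * ((d.out : G) * b * (d.out : G)⁻¹) :=
        congrArg Subtype.val hcd
      rw [← QuotientGroup.out_eq' c, ← QuotientGroup.out_eq' d, QuotientGroup.eq, mem_subgroupOf]
      have h3 := mul_left_cancel h2
      rw [mem_C]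
      push_cast
      calc (c.out : G)⁻¹ * d.out * b = (c.out : G)⁻¹ * (d.out * b * (d.out : G)⁻¹) * d.out := by group
        _ = (c.out : G)⁻¹ * (c.out * b * (c.out : G)⁻¹) * d.out := by rw [h3]
        _ = b * ((c.out : G)⁻¹ * d.out) := by group
    exact h1
  have hn : (C b).relIndex Q * Nat.card (Q ⊓ C b : Subgroup G) = Nat.card Q := by
    have h1 := relIndex_mul_card' (inf_le_left : Q ⊓ C b ≤ Q)
    rwa [inf_relIndex_left] at h1
  have hinf : Aq ⊓ (Q ⊓ C b) ≤ Q ⊓ center G := by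
    intro x hx
    refine ⟨hx.1.1, ?_⟩
    by_contra hxc
    have hxq : PEl q x := PEl.of_mem hQp hx.1.1
    exact hne ((hA1 x hx.1.2 (Or.inr hxq) hxc).symm.trans (hB1 x hx.2.2 (Or.inr hxq) hxc))
  have hprod := card_mul_le (S := Q) (A := Aq) (B := Q ⊓ C b) inf_le_left inf_le_left
  have hinf' := Subgroup.card_le_of_le hinf
  have hφr : Nat.card (phi Q u hu.2.2).range * Nat.card Aq = Nat.card Q := by
    have h1 : Nat.card (phi Q u hu.2.2).ker = Nat.card Aq := by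
      apply Nat.card_congr
      refine ⟨fun x => ⟨x.1, ⟨x.1.2, (phi_one_iff Q u hu.2.2 x.1).1 x.2⟩⟩,
        fun x => ⟨⟨x.1, x.2.1⟩, (phi_one_iff Q u hu.2.2 ⟨x.1, x.2.1⟩).2 x.2.2⟩, fun x => rfl, fun x => rfl⟩
    rw [← h1, ← Subgroup.index_ker, mul_comm]; exact Subgroup.card_mul_index _
  set R : Subgroup G := (phi Q u hu.2.2).range.map (center G).subtype with hR
  have hRc : Nat.card R = Nat.card (phi Q u hu.2.2).range :=
    (Nat.card_congr ((phi Q u hu.2.2).range.equivMapOfInjective _ (center G).subtype_injective).toEquiv).symm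
  have hRK : R ≤ K := by
    rintro _ ⟨_, ⟨x, rfl⟩, rfl⟩
    exact hcomm' u hu.1 x x.2
  have hRZ : R ≤ center G := map_subtype_le _
  have hRKe : R = K := by
    apply eq_of_le_of_card_le hRK
    rw [hT] at hprod hn
    have ha : 0 < Nat.card Aq := Nat.card_pos
    have hz : 0 < Nat.card (Q ⊓ center G : Subgroup G) := Nat.card_pos
    have hn0 : 0 < Nat.card Q := Nat.card_pos
    rw [hRc]
    -- card K ≤ card range
    generalize Nat.card (phi Q u hu.2.2).range = ρ' at *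
    generalize Nat.card K = k at *
    generalize Nat.card (psi Aq g hAqc hAqg).ker = κ at *
    generalize Nat.card (Aq ⊓ (Q ⊓ C b) : Subgroup G) = i at *
    generalize Nat.card (Q ⊓ center G : Subgroup G) = z at *
    generalize (C b).relIndex Q = ρ at *
    generalize Nat.card Aq = a at *
    generalize Nat.card Q = n at *
    have e1 : ρ' = ρ := Nat.eq_of_mul_eq_mul_right ha (hφr.trans hn.symm)
    subst e1
    have e2 : a * a ≤ a * (ρ' * z) := by
      calc a * a ≤ n * i := hprod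
        _ ≤ n * z := Nat.mul_le_mul_left _ hinf'
        _ = a * (ρ' * z) := by rw [← hn]; ring
    have e3 : a ≤ ρ' * z := Nat.le_of_mul_le_mul_left e2 ha
    have e4 : k * z ≤ k * κ := Nat.mul_le_mul_left _ hker
    have e5 : k * z ≤ ρ' * z := by omega
    exact Nat.le_of_mul_le_mul_right e5 hz
  intro x hx
  exact hRZ (hRKe ▸ hcomm' b hb x hx)

end Cfsg.Agent.H16ItoQ
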