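import Cfsg.Agent.Lib.H16HK
import Cfsg.Agent.Lib.Subsec3
import Cfsg.Agent.S0973

/-!
# Major subsections (helper16)
-/

set_option autoImplicit false
set_option linter.all false

namespace Cfsg.Agent.Lib.H16Major

open Cfsg Cfsg.Agent.Lib.BlockRing Cfsg.Agent.Lib.BlockGA Cfsg.Agent.Lib.BlockIdem Cfsg.Agent.Lib.BlockDefect
  Cfsg.Agent.Lib.BlockTransfer Cfsg.Agent.Lib.BlockHom Cfsg.Agent.Lib.BlockInd Cfsg.Agent.Lib.BlockFirst
  Cfsg.Agent.Lib.BlockSecond Cfsg.Agent.Lib.BlockCount Cfsg.Agent.Lib.Subsec Cfsg.Agent.Lib.H16HK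
open scoped ComplexConjugate

universe u

variable {G : Type u} [Group G] [Finite G] {p : ℕ} {M : Ideal AlgInt}

/-- every block with defect group `D` has a major subsection at every central element of `D`. -/
theorem exists_major (hM : IsPModular p M) {B : Set (IrrCharacter G)} (hB : IsPBlock M B) {D : Subgroup G}
    (hD : IsDefectGroup p M B D) {u : G} (hu : u ∈ D) (huc : ∀ d ∈ D, u * d = d * u) :
    ∃ b : Set (IrrCharacter (Subgroup.centralizer ({u} : Set G))),
      IsInducedBlock M (Subgroup.centralizer ({u} : Set G)) b B ∧ blockDefect p b = blockDefect p B ∧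
      IsDefectGroup p M b (D.subgroupOf (Subgroup.centralizer ({u} : Set G))) := by
  haveI := isPrime hM
  haveI : Fact p.Prime := ⟨hM.1⟩
  obtain ⟨⟨c, hcD, hcB⟩, -⟩ := Cfsg.Agent.S0973.result p M hM B hB D hD
  have hDp := defectGroup_isPGroup hD
  have hDC : D ≤ Subgroup.centralizer ({u} : Set G) := fun d hd =>
    Subgroup.mem_centralizer_singleton_iff.2 (huc d hd).symm
  have hLC : D ⊔ Subgroup.centralizer (D : Set G) ≤ Subgroup.centralizer ({u} : Set G) := by
    apply sup_le hDC
    intro x hx
    exact Subgroup.mem_centralizer_singleton_iff.2 (Subgroup.mem_centralizer_iff.1 hx u hu).symm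
  have hDL : D.subgroupOf (Subgroup.centralizer ({u} : Set G)) ≤
      (D ⊔ Subgroup.centralizer (D : Set G)).subgroupOf (Subgroup.centralizer ({u} : Set G)) := fun x hx =>
    Subgroup.mem_sup_left hx
  have hD'p : IsPGroup p (D.subgroupOf (Subgroup.centralizer ({u} : Set G))) :=
    hDp.of_equiv (Subgroup.subgroupOfEquivOfLe hDC).symm
  have hCL : Subgroup.centralizer ((D.subgroupOf (Subgroup.centralizer ({u} : Set G)) :
      Subgroup (Subgroup.centralizer ({u} : Set G))) : Set (Subgroup.centralizer ({u} : Set G))) ≤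
      (D ⊔ Subgroup.centralizer (D : Set G)).subgroupOf (Subgroup.centralizer ({u} : Set G)) := by
    intro x hx
    apply Subgroup.mem_sup_right
    rw [Subgroup.mem_centralizer_iff] at hx ⊢
    intro y hy
    exact congrArg Subtype.val (hx ⟨y, hDC hy⟩ hy)
  have hLN : (D ⊔ Subgroup.centralizer (D : Set G)).subgroupOf (Subgroup.centralizer ({u} : Set G)) ≤
      Subgroup.normalizer ((D.subgroupOf (Subgroup.centralizer ({u} : Set G)) :
      Subgroup (Subgroup.centralizer ({u} : Set G))) : Set (Subgroup.centralizer ({u} : Set G))) := by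
    rw [← normalizer_subgroupOf hDC]
    intro x hx
    exact Cfsg.Agent.Lib.BlockExtFM.sup_centralizer_le_normalizer D hx
  obtain ⟨b, hb⟩ := inducedBlockDefined hM hD'p hDL hCL hLN (isPBlock_tr_iff (e := subE hLC).2 hcB.1)
  -- `b` induces `B`
  obtain ⟨k, hk⟩ := (IsPGroup.iff_orderOf.1 hDp) ⟨u, hu⟩
  have hup : IsPGroup p (Subgroup.zpowers u) := by
    apply IsPGroup.of_card (n := k)
    rw [Nat.card_zpowers, ← hk, Subgroup.orderOf_mk]
  have hzC : Subgroup.zpowers u ≤ Subgroup.centralizer ({u} : Set G) := by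
    rw [Subgroup.zpowers_le]
    exact Subgroup.mem_centralizer_singleton_iff.2 rfl
  have hCz : Subgroup.centralizer ((Subgroup.zpowers u : Subgroup G) : Set G) ≤
      Subgroup.centralizer ({u} : Set G) :=
    Subgroup.centralizer_le (Set.singleton_subset_iff.2 (Subgroup.mem_zpowers u))
  have hCN : Subgroup.centralizer ({u} : Set G) ≤
      Subgroup.normalizer ((Subgroup.zpowers u : Subgroup G) : Set G) := by
    refine le_trans ?_ (Subgroup.centralizer_le_normalizer _)
    intro x hx
    rw [Subgroup.mem_centralizer_iff]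
    intro y hy
    obtain ⟨n, rfl⟩ := Subgroup.mem_zpowers_iff.1 hy
    have h1 : Commute u x := (Subgroup.mem_centralizer_singleton_iff.1 hx).symm
    exact (h1.zpow_left n).eq
  obtain ⟨B', hB'⟩ := inducedBlockDefined hM hup hzC hCz hCN hb.2.1
  have h1 := isInducedBlock_trans hLC hb hB'
  have h2 := induced_unique hcB h1
  subst h2
  -- defect groups
  obtain ⟨E, hE⟩ := exists_defectGroup hM hb.2.1
  have hcD' : IsDefectGroup p M (trB (subE hLC) c)
      ((D.subgroupOf (Subgroup.centralizer ({u} : Set G))).subgroupOf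
        ((D ⊔ Subgroup.centralizer (D : Set G)).subgroupOf (Subgroup.centralizer ({u} : Set G)))) := by
    rw [isDefectGroup_tr_iff, map_subgroupOf_subgroupOf]
    exact hcD
  obtain ⟨x, hx⟩ := exists_conj_le hM hb hcD' hE
  rw [Subgroup.map_subgroupOf_eq_of_le hDL] at hx
  obtain ⟨y, hy⟩ := exists_conj_le hM hB' hE hD
  have hcard1 : Nat.card E ≤ Nat.card D := by
    rw [← Subgroup.card_map_of_injective (Subgroup.subtype_injective (Subgroup.centralizer ({u} : Set G))),
      ← BlockDefect.card_map_conj D y]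
    exact Subgroup.card_le_of_le hy
  have hcard2 : Nat.card (D.subgroupOf (Subgroup.centralizer ({u} : Set G))) = Nat.card D :=
    Nat.card_congr (Subgroup.subgroupOfEquivOfLe hDC).toEquiv
  have h3 : D.subgroupOf (Subgroup.centralizer ({u} : Set G)) = E.map (MulAut.conj x).toMonoidHom := by
    apply Subgroup.eq_of_le_of_card_ge hx
    rw [BlockDefect.card_map_conj, hcard2]
    exact hcard1
  have h4 : IsDefectGroup p M b (D.subgroupOf (Subgroup.centralizer ({u} : Set G))) := by
    rw [h3]
    exact defectGroup_map_conj hE x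
  refine ⟨b, hB', ?_, h4⟩
  have h5 := defectGroup_card hM hb.2.1 h4
  have h6 := defectGroup_card hM hB hD
  rw [hcard2, h6] at h5
  exact (Nat.pow_right_injective hM.1.two_le h5).symm

/-- A character does not vanish identically on the section of an element with a major subsection. -/
theorem exists_ne_zero (hM : IsPModular p M) {u : G} {k : ℕ} (hu : u ^ p ^ k = 1)
    {b : Set (IrrCharacter (Subgroup.centralizer ({u} : Set G)))} {B : Set (IrrCharacter G)}
    (hind : IsInducedBlock M (Subgroup.centralizer ({u} : Set G)) b B)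
    (hd : blockDefect p b = blockDefect p B) {χ : IrrCharacter G} (hχ : χ ∈ B) :
    ∃ y : G, u * y = y * u ∧ ¬ p ∣ orderOf y ∧ (χ : G → ℂ) (u * y) ≠ 0 := by
  classical
  haveI := isPrime hM
  haveI := Fintype.ofFinite (Subgroup.centralizer ({u} : Set G))
  by_contra hn
  push_neg at hn
  apply (D_one_val hM hu hind hd hχ).2
  have h1 : D p u b (χ : G → ℂ) 1 = 0 := by
    have hy : ¬ p ∣ orderOf (1 : Subgroup.centralizer ({u} : Set G)) := by
      rw [orderOf_one]; exact hM.1.one_lt.ne' ∘ Nat.dvd_one.1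
    rw [D_reg hy, bp_eq hM hind.1 hy]
    apply mul_eq_zero_of_right
    refine Finset.sum_eq_zero fun c _ => ?_
    split_ifs with hc
    · rw [zero_mul]
    · rw [hn c (Subgroup.mem_centralizer_singleton_iff.1 c.2).symm (by rwa [Subgroup.orderOf_coe]), zero_mul]
  rw [h1, mul_zero, zero_div]
  exact idl_zero

/-- ... in particular at every central element of a defect group. -/
theorem exists_ne_zero_central (hM : IsPModular p M) {B : Set (IrrCharacter G)} (hB : IsPBlock M B)
    {D : Subgroup G} (hD : IsDefectGroup p M B D) {u : G} (hu : u ∈ D) (huc : ∀ d ∈ D, u * d = d * u)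
    {χ : IrrCharacter G} (hχ : χ ∈ B) :
    ∃ y : G, u * y = y * u ∧ ¬ p ∣ orderOf y ∧ (χ : G → ℂ) (u * y) ≠ 0 := by
  obtain ⟨b, h1, h2, -⟩ := exists_major hM hB hD hu huc
  obtain ⟨k, hk⟩ := (defectGroup_isPGroup hD) ⟨u, hu⟩
  exact exists_ne_zero hM (k := k) (congrArg Subtype.val hk) h1 h2 hχ

end Cfsg.Agent.Lib.H16Major
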