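import Cfsg.Agent.Lib.BlockKnorr2
import Cfsg.Agent.Lib.H16SD3
import Cfsg.Agent.Lib.PConstraint
import Cfsg.Agent.Lib.FongInv
import Cfsg.Agent.Lib.CanonExt
import Cfsg.Agent.Lib.H32PSolv
import Cfsg.Agent.Lib.DegRatio
import Cfsg.Agent.Lib.CoprimeCount
import Cfsg.Agent.Lib.Cores
import Cfsg.Agent.Lib.WSup

/-!
# Heights in blocks of `p`-solvable groups (helper16)
-/

set_option autoImplicit false
set_option linter.all false

namespace Cfsg.Agent.Lib.H16PS

open Cfsg Cfsg.Agent.Lib Cfsg.Agent.Lib.BlockRing Cfsg.Agent.Lib.BlockGA Cfsg.Agent.Lib.BlockIdem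
open Cfsg.Agent.Lib.BlockDefect Cfsg.Agent.Lib.CharBasic Cfsg.Agent.Lib.BlockDeg
open Cfsg.Agent.Lib.Clifford Cfsg.Agent.Lib.CliffordCorr
open Cfsg.Agent.Lib.BlockCover Cfsg.Agent.Lib.BlockKnorr Cfsg.Agent.Lib.BlockFong Cfsg.Agent.Lib.BlockInd

universe u

/-- characters over an invariant character of a normal Hall subgroup with abelian quotient -/
theorem degree_of_abelian_coprime {A : Type u} [Group A] [Fintype A] {N : Subgroup A} [hN : N.Normal] [Fintype N]
    (hcop : Nat.Coprime N.index (Nat.card N)) (hab : ∀ a b : A, a * b * (b * a)⁻¹ ∈ N)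
    {θ : N → ℂ} (hθ : IsIrrCharacter N θ) (hinv : ∀ g : A, cj N g θ = θ)
    {φ : A → ℂ} (hφ : IsIrrCharacter A φ) (h : classInner (fun n : N => φ n) θ ≠ 0) : φ 1 = θ 1 := by
  have hd := (charDegree_spec hθ).1
  have h1 : Nat.Coprime N.index (detOrder θ * charDegree θ) :=
    Nat.Coprime.mul_right (hcop.coprime_dvd_right (CoprimeCount.detOrder_dvd_card hθ.isCharacter))
      (hcop.coprime_dvd_right (charDegree_dvd_card hθ))
  obtain ⟨χ, ⟨hχ, hext, -⟩, -⟩ := CanonExt.canonical_extension hθ hinv hd h1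
  obtain ⟨β, hβ, hβN, rfl⟩ := CanonExt.exists_gallagher hθ hχ hext hφ h
  obtain ⟨ψ, hψ, hψβ⟩ := hβ.deflate N (fun n hn => hβN ⟨n, hn⟩)
  have hcomm : ∀ a b : A ⧸ N, a * b = b * a := by
    intro a b
    obtain ⟨a, rfl⟩ := QuotientGroup.mk_surjective a
    obtain ⟨b, rfl⟩ := QuotientGroup.mk_surjective b
    have := (QuotientGroup.eq_one_iff _).2 (hab a b)
    rw [QuotientGroup.mk_mul, QuotientGroup.mk_inv, mul_inv_eq_one] at this
    exact this
  have h2 : ψ 1 = 1 := hψ.one_eq_one_of_comm hcomm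
  have h3 : β 1 = 1 := by
    rw [← hψβ 1]; exact h2
  rw [Pi.mul_apply, h3, one_mul]
  exact hext 1


theorem inv_case {p : ℕ} [hp : Fact p.Prime] {G : Type u} [Group G] [Finite G] (hsolv : IsPSolvable p G)
    (P : Sylow p G) {N : Subgroup G} [hNn : N.Normal] (hN : N = pPrimeCore p G) [Fintype N] {θ : N → ℂ}
    (hθ : IsIrrCharacter N θ) (hinv : ∀ g : G, cj N g θ = θ) {χ : G → ℂ} (hχ : IsIrrCharacter G χ)
    (h : classInner (fun n : N => χ n) θ ≠ 0) :
    (charDegree χ).factorization p ≤ (Subgroup.center (P : Subgroup G)).index.factorization p := by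
  classical
  haveI := Fintype.ofFinite G
  have hNcop : ¬ p ∣ Nat.card N := by rw [hN]; exact PConstraint.not_dvd_card_pPrimeCore
  set π := QuotientGroup.mk' N with hπ
  have hπs : Function.Surjective π := QuotientGroup.mk'_surjective N
  set Q := pCore p (G ⧸ N) with hQ
  haveI hQn : Q.Normal := by rw [hQ]; infer_instance
  have hQp : IsPGroup p Q := Cores.isPGroup_pCore p (G ⧸ N)
  have hC : Subgroup.centralizer (Q : Set (G ⧸ N)) ≤ Q :=
    H32PSolv.centralizer_pCore_le (H32PSolv.isPSolvable_quotient hsolv N) (by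
      subst hN; exact Cores.pPrimeCore_quotient_pPrimeCore p G)
  set Ab : Subgroup (G ⧸ N) := Q ⊓ Subgroup.centralizer (Q : Set (G ⧸ N)) with hAb
  have hAbp : IsPGroup p Ab := hQp.to_le inf_le_left
  set A : Subgroup G := Ab.comap π with hA
  haveI hAn : A.Normal := (inferInstance : Ab.Normal).comap π
  haveI := Fintype.ofFinite A
  have hNA : N ≤ A := by
    intro x hx
    show π x ∈ Ab
    have : π x = 1 := (QuotientGroup.eq_one_iff x).2 hx
    rw [this]
    exact Ab.one_mem
  have hcardA : Nat.card A = Nat.card N * Nat.card Ab := by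
    rw [hA, Cores.card_comap_of_surjective hπs, hπ, QuotientGroup.ker_mk']
  have hcN' : Nat.card (N.subgroupOf A) = Nat.card N := SubgroupTools.card_subgroupOf_of_le hNA
  haveI hN'n : (N.subgroupOf A).Normal := hNn.subgroupOf A
  haveI := Fintype.ofFinite (N.subgroupOf A)
  have hidx : (N.subgroupOf A).index = Nat.card Ab := by
    have h1 := (N.subgroupOf A).card_mul_index
    rw [hcN', hcardA] at h1
    exact Nat.eq_of_mul_eq_mul_left Nat.card_pos h1
  obtain ⟨k, hk⟩ := IsPGroup.iff_card.1 hAbp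
  have hcop : Nat.Coprime (N.subgroupOf A).index (Nat.card (N.subgroupOf A)) := by
    rw [hidx, hcN', hk]
    exact Nat.Coprime.pow_left k ((Nat.Prime.coprime_iff_not_dvd hp.out).2 hNcop)
  have hab : ∀ a b : A, a * b * (b * a)⁻¹ ∈ N.subgroupOf A := by
    intro a b
    rw [Subgroup.mem_subgroupOf]
    have ha : π a ∈ Ab := a.2
    have hb : π b ∈ Ab := b.2
    have h1 : π a * π b = π b * π a := Subgroup.mem_centralizer_iff.1 hb.2 _ ha.1
    apply (QuotientGroup.eq_one_iff _).1
    show π ((a : G) * b * ((b : G) * a)⁻¹) = 1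
    rw [map_mul, map_inv, map_mul, map_mul, h1, mul_inv_cancel]
  have hθ' : IsIrrCharacter (N.subgroupOf A) (fun x => θ (subEquiv N A hNA x)) :=
    (isIrrCharacter_comp_mulEquiv_iff (subEquiv N A hNA)).mpr hθ
  have hinv' : ∀ a : A, cj (N.subgroupOf A) a (fun x => θ (subEquiv N A hNA x)) = fun x => θ (subEquiv N A hNA x) :=
    fun a => (H16SD3.inertia_subgroupOf hNA θ a).2 (hinv a)
  have hin : classInner (fun x : N.subgroupOf A => χ ((x : A) : G)) (fun x => θ (subEquiv N A hNA x)) ≠ 0 := by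
    have h1 := classInner_comp_equiv (subEquiv N A hNA) (fun k : N => χ k) θ
    intro h2
    exact h (h1.symm.trans h2)
  obtain ⟨φ, hφχ, hφθ⟩ := H16SD3.exists_over (N := N.subgroupOf A) (hχ.isCharacter.restrict A) hθ' hin
  have hφ1 := degree_of_abelian_coprime hcop hab hθ' hinv' φ.2 hφθ
  have hφ2 : charDegree (φ : A → ℂ) = charDegree θ := by
    have h1 := (charDegree_spec φ.2).1
    have h2 := (charDegree_spec hθ).1
    rw [hφ1] at h1
    simp only [map_one] at h1
    rw [h2] at h1
    exact_mod_cast h1.symm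
  obtain ⟨f, hf1, hf2⟩ := DegRatio.degree_ratio hχ φ.2 hφχ (charDegree_spec hχ).1 (charDegree_spec φ.2).1
  have hf0 : f ≠ 0 := by
    rintro rfl
    exact (charDegree_spec hχ).2 (by rw [hf1, zero_mul])
  have hνθ : (charDegree θ).factorization p = 0 :=
    Nat.factorization_eq_zero_of_not_dvd fun h1 => hNcop (h1.trans (charDegree_dvd_card hθ))
  have h3 : (charDegree χ).factorization p ≤ A.index.factorization p := by
    rw [hf1, hφ2, Nat.factorization_mul hf0 (charDegree_spec hθ).2, Finsupp.add_apply, hνθ, add_zero]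
    exact (Nat.factorization_le_iff_dvd hf0 Subgroup.index_ne_zero_of_finite).2 hf2 p
  refine h3.trans ?_
  -- the centre of `P` embeds in `Ab`
  have hQP : Q ≤ (P : Subgroup G).map π := by
    have h1 := Cores.pCore_le_sylow (P.mapSurjective hπs)
    rwa [Sylow.coe_mapSurjective] at h1
  have hzA : ∀ z : P, z ∈ Subgroup.center (P : Subgroup G) → π z ∈ Ab := by
    intro z hz
    have h1 : π z ∈ Subgroup.centralizer (Q : Set (G ⧸ N)) := by
      rw [Subgroup.mem_centralizer_iff]
      intro q hq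
      obtain ⟨x, hx, rfl⟩ := hQP hq
      have h2 := Subgroup.mem_center_iff.1 hz ⟨x, hx⟩
      have h4 : x * (z : G) = z * x := congrArg Subtype.val h2
      rw [← map_mul, ← map_mul, h4]
    exact ⟨hC h1, h1⟩
  have hinj : Nat.card (Subgroup.center (P : Subgroup G)) ≤ Nat.card Ab := by
    refine Nat.card_le_card_of_injective
      (fun z : Subgroup.center (P : Subgroup G) => (⟨π ((z : P) : G), hzA z z.2⟩ : Ab)) ?_
    intro z1 z2 h12
    have h4 : π ((z1 : P) : G) = π ((z2 : P) : G) := congrArg Subtype.val h12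
    have h5 : ((z1 : P) : G)⁻¹ * ((z2 : P) : G) ∈ N := QuotientGroup.eq.1 h4
    have h6 : ((z1 : P) : G)⁻¹ * ((z2 : P) : G) ∈ (P : Subgroup G) :=
      mul_mem (inv_mem (z1 : P).2) (z2 : P).2
    have h7 : ((z1 : P) : G)⁻¹ * ((z2 : P) : G) = 1 := by
      obtain ⟨j, hj⟩ := (IsPGroup.iff_orderOf.1 P.2) ⟨_, h6⟩
      have h8 : orderOf (((z1 : P) : G)⁻¹ * ((z2 : P) : G)) = p ^ j := by
        rw [← hj]
        exact Subgroup.orderOf_coe (⟨_, h6⟩ : (P : Subgroup G))
      have h9 : orderOf (((z1 : P) : G)⁻¹ * ((z2 : P) : G)) ∣ Nat.card N := by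
        have := orderOf_dvd_natCard (⟨_, h5⟩ : N)
        rwa [← Subgroup.orderOf_coe] at this
      rcases Nat.eq_zero_or_pos j with rfl | hj0
      · rw [pow_zero] at h8
        exact orderOf_eq_one_iff.1 h8
      · exact absurd ((dvd_pow_self p hj0.ne').trans (h8 ▸ h9)) hNcop
    have h8 : ((z1 : P) : G) = ((z2 : P) : G) := by
      rw [inv_mul_eq_one] at h7
      exact h7
    exact Subtype.ext (Subtype.ext h8)
  have hPp : IsPGroup p (Subgroup.center (P : Subgroup G)) := P.2.to_subgroup _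
  obtain ⟨j, hj⟩ := IsPGroup.iff_card.1 hPp
  rw [hk, hj] at hinj
  have hjk : j ≤ k := (Nat.pow_le_pow_iff_right hp.out.one_lt).1 hinj
  have hcP := P.card_eq_multiplicity
  have h10 := (Subgroup.center (P : Subgroup G)).card_mul_index
  rw [hj, hcP] at h10
  have h11 := congrArg (fun n => n.factorization p) h10
  rw [Nat.factorization_mul (pow_ne_zero _ hp.out.ne_zero) Subgroup.index_ne_zero_of_finite, Finsupp.add_apply,
    hp.out.factorization_pow, hp.out.factorization_pow, Finsupp.single_eq_same, Finsupp.single_eq_same] at h11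
  have h12 := congrArg (fun n => n.factorization p) A.card_mul_index
  rw [Nat.factorization_mul Nat.card_pos.ne' Subgroup.index_ne_zero_of_finite, hcardA,
    Nat.factorization_mul Nat.card_pos.ne' Nat.card_pos.ne', hk, Finsupp.add_apply, Finsupp.add_apply,
    hp.out.factorization_pow, Finsupp.single_eq_same, Nat.factorization_eq_zero_of_not_dvd hNcop] at h12
  omega


theorem center_index_eq {A B : Type*} [Group A] [Group B] (e : A ≃* B) :
    (Subgroup.center A).index = (Subgroup.center B).index := by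
  have h : (Subgroup.center A).map e.toMonoidHom = Subgroup.center B := by
    ext x
    constructor
    · rintro ⟨a, ha, rfl⟩
      rw [Subgroup.mem_center_iff]
      intro b
      obtain ⟨b, rfl⟩ := e.surjective b
      show e b * e a = e a * e b
      rw [← map_mul, ← map_mul, Subgroup.mem_center_iff.1 ha b]
    · intro hx
      obtain ⟨a, rfl⟩ := e.surjective x
      refine ⟨a, ?_, rfl⟩
      rw [SetLike.mem_coe, Subgroup.mem_center_iff]
      intro b
      apply e.injective
      rw [map_mul, map_mul]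
      exact Subgroup.mem_center_iff.1 hx (e b)
  rw [← h]
  exact (Subgroup.index_map_equiv _ e).symm

/-- the Fong--Reynolds step, with heights and defect groups -/
theorem fong_step {p : ℕ} [hp : Fact p.Prime] {M : Ideal AlgInt} (hM : IsPModular p M) {G : Type u} [Group G]
    [Fintype G] {N : Subgroup G} [hNn : N.Normal] [Fintype N] {b : Set (IrrCharacter N)} (hb : IsPBlock M b)
    {B : Set (IrrCharacter G)} (hB : IsPBlock M B) (hcov : Covers B b) {χ : IrrCharacter G} (hχ : χ ∈ B) :
    ∃ (B' : Set (IrrCharacter (stabT (G := G) b))) (ψ : IrrCharacter (stabT (G := G) b)), IsPBlock M B' ∧ ψ ∈ B' ∧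
      (χ : G → ℂ) = indFun (stabT (G := G) b) (ψ : stabT (G := G) b → ℂ) ∧
      blockHeight p B (χ : G → ℂ) = blockHeight p B' (ψ : stabT (G := G) b → ℂ) ∧
      ∀ D : Subgroup (stabT (G := G) b), IsDefectGroup p M B' D →
        IsDefectGroup p M B (D.map (stabT (G := G) b).subtype) := by
  classical
  haveI := isPrime hM
  have hs := stab_stabT (G := G) hb
  have hub : UnionOfBlocks M b := unionOfBlocks_of_isPBlock hb
  have hlb : LocA M (eB b) := locA_eB hb
  obtain ⟨θ, hθ, hχθ⟩ := covers_all hB hub hcov hχ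
  obtain ⟨ψ, hψ, hχψ⟩ := ind_surj hs ⟨θ, hθ, hχθ⟩
  have hB' : IsPBlock M (blockOf M (ψ : stabT (G := G) b → ℂ)) := isPBlock_blockOf ψ
  obtain ⟨χ₀, hχ₀, hind, hmem⟩ := fong_main hs hub hB' (mem_blockOf_self ψ) hψ
  have hχχ : χ = χ₀ := Subtype.ext (by rw [hχψ, hχ₀])
  have hBeq : blockOf M (χ₀ : G → ℂ) = B := by rw [← hχχ]; exact (eq_blockOf hB hχ).symm
  rw [hBeq] at hind hmem
  have hirr : ∀ ψ' ∈ blockOf M (ψ : stabT (G := G) b → ℂ), IsIrrCharacter G (indFun (stabT (G := G) b) (ψ' : stabT (G := G) b → ℂ)) :=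
    fun ψ' hψ' => ind_irr hs (over_all hs hlb (sameBlock_of_mem hB' (mem_blockOf_self ψ) hψ') hψ)
  have hv := vmin_ind (p := p) (isPBlock_nonempty hB') hmem hirr
  have hd : blockDefect p (blockOf M (ψ : stabT (G := G) b → ℂ)) = blockDefect p B := by
    rw [BlockDefect.blockDefect_eq, BlockDefect.blockDefect_eq, hv, ← (stabT (G := G) b).card_mul_index,
      Nat.factorization_mul Nat.card_pos.ne' Subgroup.index_ne_zero_of_finite, Finsupp.add_apply]
    omega
  refine ⟨_, ψ, hB', mem_blockOf_self ψ, hχψ, ?_, fun D hD => ?_⟩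
  · rw [blockHeight_eq, blockHeight_eq, hv, vdeg_ind (p := p) (ψ := ψ) hχψ]
    omega
  · obtain ⟨E, hE⟩ := exists_defectGroup hM hB
    obtain ⟨x, hx⟩ := defect_le_induced hM hind hD hE
    apply isDefectGroup_of_le hE hx
    rw [defectGroup_card hM hB hE, Subgroup.card_map_of_injective (stabT (G := G) b).subtype_injective,
      defectGroup_card hM hB' hD, hd]

/-- Heights in blocks of `p`-solvable groups. -/
theorem height_le {p : ℕ} [hp : Fact p.Prime] {M : Ideal AlgInt} (hM : IsPModular p M) :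
    ∀ (n : ℕ) (G : Type u) [Group G] [Finite G], Nat.card G = n → IsPSolvable p G →
      ∀ B : Set (IrrCharacter G), IsPBlock M B → ∀ P : Subgroup G, IsDefectGroup p M B P →
      ∀ χ ∈ B, blockHeight p B (χ : G → ℂ) ≤ (Subgroup.center P).index.factorization p := by
  intro n
  induction n using Nat.strong_induction_on with
  | _ n ih =>
  intro G _ _ hn hsolv B hB P hP χ hχ
  classical
  haveI := isPrime hM
  haveI hMm : M.IsMaximal := hM.2.1
  haveI := Fintype.ofFinite G
  obtain ⟨N, hN⟩ : ∃ N, N = pPrimeCore p G := ⟨_, rfl⟩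
  haveI hNn : N.Normal := by rw [hN]; infer_instance
  haveI := Fintype.ofFinite N
  have hNcop : ¬ p ∣ Nat.card N := by rw [hN]; exact PConstraint.not_dvd_card_pPrimeCore
  obtain ⟨θ, hθ⟩ := exists_constituent_res N χ
  have hb : IsPBlock M ({θ} : Set (IrrCharacter N)) := CoreTop.isPBlock_singleton hM hNcop θ
  have hcov : Covers B ({θ} : Set (IrrCharacter N)) := ⟨χ, hχ, θ, rfl, hθ⟩
  by_cases hT : stabT (G := G) ({θ} : Set (IrrCharacter N)) = ⊤
  · have hinv : ∀ g : G, cj N g (θ : N → ℂ) = θ := by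
      intro g
      have h1 : g ∈ stabT (G := G) ({θ} : Set (IrrCharacter N)) := by rw [hT]; trivial
      have h2 := (h1 θ).1 rfl
      exact congrArg Subtype.val h2
    obtain ⟨B0, hB0, hmem, -, hdef⟩ := FongInv.main hM (WSup.isPConstrained_of_isPSolvable hsolv) hN θ
      (fun g n => congrFun (hinv g) n)
    have hBB0 : B = B0 := by
      rw [eq_blockOf hB hχ, eq_blockOf hB0 ((hmem χ).2 hθ)]
    subst hBB0
    obtain ⟨S, rfl⟩ := hdef P hP
    refine le_trans ?_ (inv_case hsolv S hN θ.2 hinv χ.2 hθ)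
    exact Nat.sub_le _ _
  · obtain ⟨B', ψ, hB', hψ, -, hht, hdef⟩ := fong_step (p := p) hM hb hB hcov hχ
    obtain ⟨D', hD'⟩ := exists_defectGroup hM hB'
    have hlt : Nat.card (stabT (G := G) ({θ} : Set (IrrCharacter N))) < n := by
      rw [← hn]
      refine lt_of_le_of_ne (Subgroup.card_le_card_group _) ?_
      intro h
      exact hT (Subgroup.eq_top_of_card_eq _ h)
    have h1 := ih _ hlt _ rfl (H32PSolv.isPSolvable_subgroup hsolv _) B' hB' D' hD' ψ hψ
    rw [hht]
    refine h1.trans (le_of_eq ?_)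
    congr 1
    obtain ⟨x, hx⟩ := defectGroup_conj hM hB (hdef D' hD') hP
    have e1 : D' ≃* (D'.map (stabT (G := G) ({θ} : Set (IrrCharacter N))).subtype : Subgroup G) :=
      D'.equivMapOfInjective _ (Subgroup.subtype_injective _)
    have e2 : (D'.map (stabT (G := G) ({θ} : Set (IrrCharacter N))).subtype : Subgroup G) ≃* P := by
      rw [hx]
      exact Subgroup.equivMapOfInjective _ _ (MulAut.conj x).injective
    rw [center_index_eq (e1.trans e2)]

end Cfsg.Agent.Lib.H16PS
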