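import Cfsg.Agent.Lib.CrossDeg
import Cfsg.Agent.Lib.ItoPSolv
import Cfsg.Agent.Lib.BlockDeg

set_option autoImplicit false
set_option linter.all false

namespace Cfsg.Agent.Lib.H16Pal0

open Subgroup Cfsg Cfsg.Agent.Lib Cfsg.Agent.Lib.CharBasic Cfsg.Agent.Lib.Clifford

universe u v

/-- `A` contains a Sylow `p`-subgroup of `L` which is abelian and normalised by `A` -/
def NAS {G : Type u} [Group G] (p : ℕ) (L A : Subgroup G) : Prop :=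
  ∃ U : Subgroup G, U ≤ A ∧ A ≤ normalizer (U : Set G) ∧ IsPGroup p U ∧ ¬ p ∣ U.relIndex L ∧
    ∀ a ∈ U, ∀ b ∈ U, a * b = b * a

/-- some (hence every) Sylow `p`-subgroup of `L` centralises `V` -/
def CS {G : Type u} [Group G] (p : ℕ) (L V : Subgroup G) : Prop :=
  ∃ U : Subgroup G, U ≤ L ∧ IsPGroup p U ∧ ¬ p ∣ U.relIndex L ∧ ∀ a ∈ U, ∀ v ∈ V, a * v = v * a

/-- normal abelian Sylow `p`-subgroup -/
def NSyl (G : Type u) [Group G] (p : ℕ) : Prop :=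
  ∃ P : Subgroup G, P.Normal ∧ (∀ x ∈ P, ∀ y ∈ P, x * y = y * x) ∧ IsPGroup p P ∧ ¬ p ∣ P.index

/-- `χ` lies over `θ` -/
def Over {G : Type u} [Group G] [Finite G] (N : Subgroup G) (χ : G → ℂ) (θ : N → ℂ) : Prop :=
  letI := Fintype.ofFinite N; classInner (fun n : N => χ n) θ ≠ 0

/-- the situation of case B -/
structure SB {G : Type u} [Group G] [Finite G] (T V L : Subgroup G) (t p q : ℕ) : Prop where
  sol : Group.IsSolvable G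
  pt : t.Prime
  pp : p.Prime
  pq : q.Prime
  tp : t ≠ p
  tq : t ≠ q
  pneq : p ≠ q
  Tn : T.Normal
  Vn : V.Normal
  Tt : IsPGroup t T
  TL : T ⊓ L = ⊥
  TL' : T ⊔ L = ⊤
  cop : (Nat.card T).Coprime (Nat.card L)
  hV : ⁅T, T⁆ = V
  V1 : V ≠ ⊥
  VZ : ∀ v ∈ V, ∀ x ∈ T, v * x = x * v
  Vmin : ∀ W : Subgroup G, W.Normal → W ≤ V → W = ⊥ ∨ W = V
  degp : ∀ χ : IrrCharacter G, t ∣ charDegree (χ : G → ℂ) → ¬ p ∣ charDegree (χ : G → ℂ)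
  degq : ∀ χ : IrrCharacter G, t ∣ charDegree (χ : G → ℂ) → ¬ q ∣ charDegree (χ : G → ℂ)
  degpq : ∀ χ : IrrCharacter G, p ∣ charDegree (χ : G → ℂ) → ¬ q ∣ charDegree (χ : G → ℂ)
  np : ¬ NSyl G p
  nq : ¬ NSyl G q

/-- the situation of case A -/
structure SA {G : Type u} [Group G] [Finite G] (T V L : Subgroup G) (t s p q : ℕ) : Prop where
  sol : Group.IsSolvable G
  pt : t.Prime
  ps : s.Prime
  pp : p.Prime
  pq : q.Prime
  tp : t ≠ p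
  tq : t ≠ q
  ts : t ≠ s
  pneq : p ≠ q
  Vn : V.Normal
  Vab : ∀ a ∈ V, ∀ b ∈ V, a * b = b * a
  Vs : IsPGroup s V
  VL : V ⊓ L = ⊥
  VL' : V ⊔ L = ⊤
  TL : T ≤ L
  LT : L ≤ normalizer (T : Set G)
  Tt : IsPGroup t T
  Ti : ¬ t ∣ T.index
  CT : ∀ v ∈ V, (∀ a ∈ T, a * v = v * a) → v = 1
  degp : ∀ χ : IrrCharacter G, t ∣ charDegree (χ : G → ℂ) → ¬ p ∣ charDegree (χ : G → ℂ)
  degq : ∀ χ : IrrCharacter G, t ∣ charDegree (χ : G → ℂ) → ¬ q ∣ charDegree (χ : G → ℂ)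
  np : ¬ NSyl G p
  nq : ¬ NSyl G q

end Cfsg.Agent.Lib.H16Pal0
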