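import Cfsg.Agent.Lib.H16Pal0

set_option autoImplicit false
set_option linter.all false

namespace Cfsg.Agent.Lib.H16PalP1

open Subgroup Cfsg Cfsg.Agent.Lib Cfsg.Agent.Lib.H16Pal0

universe u v

theorem max_eq {H : Type u} [Group H] [Finite H] {p : ℕ} (hp : p.Prime) {U Q : Subgroup H}
    (hUi : ¬ p ∣ U.index) (hQ : IsPGroup p Q) (h : U ≤ Q) : U = Q := by
  haveI : Fact p.Prime := ⟨hp⟩
  apply le_antisymm h
  have h1 : U.relIndex Q ∣ Nat.card Q := Subgroup.relIndex_dvd_card U Q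
  obtain ⟨n, hn⟩ := (IsPGroup.iff_card.mp hQ)
  rw [hn] at h1
  obtain ⟨k, -, hk⟩ := (Nat.dvd_prime_pow hp).1 h1
  have h2 : U.relIndex Q ∣ U.index := ⟨Q.index, (Subgroup.relIndex_mul_index h).symm⟩
  have hk0 : k = 0 := by
    by_contra h0
    exact hUi ((dvd_pow_self p h0).trans (hk ▸ h2))
  rw [hk0, pow_zero] at hk
  exact Subgroup.relIndex_eq_one.1 hk

theorem nas_unique {H : Type u} [Group H] [Finite H] {p : ℕ} (hp : p.Prime) {A : Subgroup H} (h : NAS p ⊤ A) :
    ∃ U0 : Subgroup H, IsPGroup p U0 ∧ ¬ p ∣ U0.index ∧ U0 ≤ A ∧ A ≤ normalizer (U0 : Set H) ∧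
      (∀ a ∈ U0, ∀ b ∈ U0, a * b = b * a) ∧
      ∀ U : Subgroup H, IsPGroup p U → ¬ p ∣ U.index → U ≤ A → U = U0 := by
  haveI : Fact p.Prime := ⟨hp⟩
  obtain ⟨U0, h1, h2, h3, h4, h5⟩ := h
  rw [Subgroup.relIndex_top_right] at h4
  refine ⟨U0, h3, h4, h1, h2, h5, ?_⟩
  intro U hU hUi hUA
  have h6 : IsPGroup p (U ⊔ U0 : Subgroup H) := IsPGroup.to_sup_of_normal_right' hU h3 (hUA.trans h2)
  rw [max_eq hp hUi h6 le_sup_left]
  exact (max_eq hp h4 h6 le_sup_right).symm

section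

variable {H : Type u} [Group H] {X : Type v} [CommGroup X] [MulDistribMulAction H X]

/-- fixed points -/
def Fx (X : Type v) [CommGroup X] [MulDistribMulAction H X] (U : Subgroup H) : Subgroup X where
  carrier := {x | ∀ g ∈ U, g • x = x}
  mul_mem' := by
    intro a b ha hb g hg
    rw [smul_mul', ha g hg, hb g hg]
  one_mem' := by
    intro g _
    exact smul_one g
  inv_mem' := by
    intro a ha g hg
    rw [smul_inv', ha g hg]

theorem mem_Fx {U : Subgroup H} {x : X} : x ∈ Fx X U ↔ ∀ g ∈ U, g • x = x := Iff.rfl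

theorem card_Fx_conj [Finite X] (U : Subgroup H) (g : H) :
    Nat.card (Fx X (U.map (MulAut.conj g).toMonoidHom)) = Nat.card (Fx X U) := by
  refine Nat.card_congr ⟨fun x => ⟨g⁻¹ • (x : X), ?_⟩, fun x => ⟨g • (x : X), ?_⟩, ?_, ?_⟩
  · intro a ha
    have h1 := x.2 (g * a * g⁻¹) ⟨a, ha, rfl⟩
    rw [← mul_smul, show a * g⁻¹ = g⁻¹ * (g * a * g⁻¹) by group, mul_smul, h1]
  · rintro b ⟨a, ha, rfl⟩
    show (g * a * g⁻¹) • g • (x : X) = g • (x : X)
    rw [← mul_smul, show g * a * g⁻¹ * g = g * a by group, mul_smul, x.2 a ha]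
  · intro x
    apply Subtype.ext
    simp
  · intro x
    apply Subtype.ext
    simp

end

section

variable {H : Type u} [Group H] [Finite H] {X : Type v} [CommGroup X] [Finite X] [MulDistribMulAction H X]
  [FaithfulSMul H X] {s d : ℕ}

theorem p1 (hs : s.Prime) (hX : Nat.card X = s ^ d) {p : ℕ} (hp : p.Prime) (hpd : p ∣ Nat.card H)
    (hpart : ∀ x : X, x ≠ 1 → NAS p ⊤ (MulAction.stabilizer H x)) :
    ∃ c, 0 < c ∧ c < d ∧ (∀ U : Subgroup H, IsPGroup p U → ¬ p ∣ U.index →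
      Nat.card {x : X // ∀ g ∈ U, g • x = x} = s ^ c) ∧ Nat.card (Sylow p H) * (s ^ c - 1) = s ^ d - 1 ∧
      (∀ (U W : Subgroup H) (x : X), IsPGroup p U → ¬ p ∣ U.index → IsPGroup p W → ¬ p ∣ W.index → x ≠ 1 →
        (∀ g ∈ U, g • x = x) → (∀ g ∈ W, g • x = x) → U = W) := by
  classical
  haveI : Fact p.Prime := ⟨hp⟩
  have huniq : ∀ (U W : Subgroup H) (x : X), IsPGroup p U → ¬ p ∣ U.index → IsPGroup p W → ¬ p ∣ W.index → x ≠ 1 →
        (∀ g ∈ U, g • x = x) → (∀ g ∈ W, g • x = x) → U = W := by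
    intro U W x hU hUi hW hWi hx h1 h2
    obtain ⟨U0, -, -, -, -, -, h⟩ := nas_unique hp (hpart x hx)
    rw [h U hU hUi (fun g hg => MulAction.mem_stabilizer_iff.2 (h1 g hg)),
      h W hW hWi (fun g hg => MulAction.mem_stabilizer_iff.2 (h2 g hg))]
  obtain ⟨P⟩ : Nonempty (Sylow p H) := inferInstance
  have hdv : Nat.card (Fx X (P : Subgroup H)) ∣ s ^ d := hX ▸ Subgroup.card_subgroup_dvd_card _
  obtain ⟨c, hcd, hc⟩ := (Nat.dvd_prime_pow hs).1 hdv
  have hall : ∀ U : Subgroup H, IsPGroup p U → ¬ p ∣ U.index → Nat.card (Fx X U) = s ^ c := by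
    intro U hU hUi
    obtain ⟨g, hg⟩ := MulAction.exists_smul_eq H P (hU.toSylow hUi)
    have h1 : U = (P : Subgroup H).map (MulAut.conj g).toMonoidHom := by
      have := congrArg (fun Q : Sylow p H => (Q : Subgroup H)) hg
      exact this.symm
    rw [h1, card_Fx_conj, hc]
  -- existence of a nontrivial element
  have hcard : 1 < Nat.card H := lt_of_lt_of_le hp.one_lt (Nat.le_of_dvd Nat.card_pos hpd)
  have hXnt : ∃ x : X, x ≠ 1 := by
    by_contra h0
    push Not at h0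
    haveI : Nontrivial H := Finite.one_lt_card_iff_nontrivial.1 hcard
    obtain ⟨g, hg⟩ := exists_ne (1 : H)
    exact hg (FaithfulSMul.eq_of_smul_eq_smul (α := X) (fun x => by rw [h0 x, smul_one, smul_one]))
  obtain ⟨x0, hx0⟩ := hXnt
  have hc0 : 0 < c := by
    obtain ⟨U0, h1, h2, h3, -, -, -⟩ := nas_unique hp (hpart x0 hx0)
    rcases Nat.eq_zero_or_pos c with h | h
    · exfalso
      have h4 := hall U0 h1 h2
      rw [h, pow_zero] at h4
      have h5 : Fx X U0 = ⊥ := Subgroup.card_eq_one.1 h4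
      apply hx0
      have h6 : x0 ∈ Fx X U0 := fun g hg => MulAction.mem_stabilizer_iff.1 (h3 hg)
      rw [h5] at h6
      exact Subgroup.mem_bot.1 h6
    · exact h
  have hcd' : c < d := by
    rcases hcd.lt_or_eq with h | h
    · exact h
    · exfalso
      rw [h, ← hX] at hc
      have h5 : Fx X (P : Subgroup H) = ⊤ := Subgroup.eq_top_of_card_eq _ hc
      have h6 : (P : Subgroup H) = ⊥ := by
        rw [eq_bot_iff]
        intro g hg
        rw [Subgroup.mem_bot]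
        apply FaithfulSMul.eq_of_smul_eq_smul (α := X)
        intro x
        have h7 : x ∈ Fx X (P : Subgroup H) := h5 ▸ Subgroup.mem_top x
        rw [h7 g hg, one_smul]
      have h7 := P.not_dvd_index
      rw [h6, Subgroup.index_bot] at h7
      exact h7 hpd
  refine ⟨c, hc0, hcd', fun U hU hUi => hall U hU hUi, ?_, huniq⟩
  -- the count
  let E : (Σ U : Sylow p H, {x : Fx X (U : Subgroup H) // x ≠ 1}) ≃ {x : X // x ≠ 1} := by
    refine Equiv.ofBijective (fun a => ⟨(a.2 : Fx X (a.1 : Subgroup H)), fun h => a.2.2 (Subtype.ext h)⟩) ⟨?_, ?_⟩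
    · rintro ⟨U, ⟨x, hx⟩, hx1⟩ ⟨W, ⟨y, hy⟩, hy1⟩ hxy
      have hxy' : x = y := congrArg Subtype.val hxy
      subst hxy'
      have h1 : (U : Subgroup H) = W := huniq U W x U.2 U.not_dvd_index W.2 W.not_dvd_index
        (fun h => hx1 (Subtype.ext h)) hx hy
      have h2 : U = W := Sylow.ext h1
      subst h2
      rfl
    · rintro ⟨x, hx⟩
      obtain ⟨U0, h1, h2, h3, -, -, -⟩ := nas_unique hp (hpart x hx)
      refine ⟨⟨h1.toSylow h2, ⟨x, fun g hg => MulAction.mem_stabilizer_iff.1 (h3 hg)⟩, fun h => hx (congrArg Subtype.val h)⟩, rfl⟩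
  have hE := Nat.card_congr E
  haveI := Fintype.ofFinite (Sylow p H)
  rw [Nat.card_sigma] at hE
  have h1 : ∀ U : Sylow p H, Nat.card {x : Fx X (U : Subgroup H) // x ≠ 1} = s ^ c - 1 := by
    intro U
    have := hall U U.2 U.not_dvd_index
    have h2 : Nat.card {x : Fx X (U : Subgroup H) // x ≠ 1} = Nat.card (Fx X (U : Subgroup H)) - 1 := by
      haveI := Fintype.ofFinite (Fx X (U : Subgroup H))
      rw [Nat.card_eq_fintype_card, Nat.card_eq_fintype_card]
      exact Set.card_ne_eq (1 : Fx X (U : Subgroup H))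
    rw [h2, this]
  have h3 : Nat.card {x : X // x ≠ 1} = s ^ d - 1 := by
    haveI := Fintype.ofFinite X
    rw [← hX, Nat.card_eq_fintype_card, Nat.card_eq_fintype_card]
    exact Set.card_ne_eq (1 : X)
  rw [h3, Finset.sum_congr rfl (fun U _ => h1 U)] at hE
  rw [Finset.sum_const, Finset.card_univ, smul_eq_mul, ← Nat.card_eq_fintype_card] at hE
  exact hE

end

end Cfsg.Agent.Lib.H16PalP1
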