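import Cfsg.Agent.Lib.H16Pal0
import Cfsg.Agent.Lib.H16PalP1
import Cfsg.Agent.Lib.Cores3
import Cfsg.Agent.Lib.Cores2

set_option autoImplicit false
set_option linter.all false

namespace Cfsg.Agent.Lib.H16PalM

open Subgroup Cfsg Cfsg.Agent.Lib Cfsg.Agent.Lib.CharBasic Cfsg.Agent.Lib.Clifford Cfsg.Agent.Lib.H16Pal0

universe u v

variable {G : Type u} [Group G] [Finite G]

theorem inflL {N L : Subgroup G} [N.Normal] (h1 : N ⊓ L = ⊥) (h2 : N ⊔ L = ⊤) (χ : IrrCharacter L) :
    ∃ ψ : IrrCharacter G, charDegree (ψ : G → ℂ) = charDegree (χ : L → ℂ) := by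
  let e0 : L →* G ⧸ N := (QuotientGroup.mk' N).comp L.subtype
  have hb : Function.Bijective e0 := by
    constructor
    · rw [injective_iff_map_eq_one]
      intro a ha
      have h3 : (a : G) ∈ N := (QuotientGroup.eq_one_iff (a : G)).1 ha
      have h4 : (a : G) ∈ N ⊓ L := ⟨h3, a.2⟩
      rw [h1] at h4
      exact Subtype.ext (Subgroup.mem_bot.1 h4)
    · intro x
      obtain ⟨g, rfl⟩ := QuotientGroup.mk_surjective x
      have h3 : g ∈ N ⊔ L := h2 ▸ Subgroup.mem_top g
      obtain ⟨n, hn, l, hl, rfl⟩ := Subgroup.mem_sup_of_normal_left.1 h3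
      refine ⟨⟨l, hl⟩, ?_⟩
      show ((l : G) : G ⧸ N) = ((n * l : G) : G ⧸ N)
      rw [QuotientGroup.mk_mul, (QuotientGroup.eq_one_iff n).2 hn, one_mul]
  let e : L ≃* G ⧸ N := MulEquiv.ofBijective e0 hb
  let f : G →* L := e.symm.toMonoidHom.comp (QuotientGroup.mk' N)
  have hf : Function.Surjective f := e.symm.surjective.comp (QuotientGroup.mk'_surjective N)
  refine ⟨⟨fun g => (χ : L → ℂ) (f g), χ.2.comp_surjective f hf⟩, ?_⟩
  have h5 : f 1 = 1 := map_one f
  show ⌊((χ : L → ℂ) (f 1)).re⌋₊ = ⌊((χ : L → ℂ) 1).re⌋₊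
  rw [h5]

theorem preimage {V : Subgroup G} [V.Normal] {t : ℕ} (h : NSyl (G ⧸ V) t) :
    ∃ T : Subgroup G, T.Normal ∧ V ≤ T ∧ ⁅T, T⁆ ≤ V ∧ ¬ t ∣ T.index ∧ ∀ x ∈ T, ∃ k : ℕ, x ^ t ^ k ∈ V := by
  obtain ⟨P, hPn, hPc, hPp, hPi⟩ := h
  refine ⟨P.comap (QuotientGroup.mk' V), hPn.comap _, ?_, ?_, ?_, ?_⟩
  · intro v hv
    rw [Subgroup.mem_comap, QuotientGroup.mk'_apply, (QuotientGroup.eq_one_iff v).2 hv]
    exact P.one_mem
  · rw [Subgroup.commutator_le]
    intro a ha b hb
    have := hPc _ ha _ hb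
    rw [← QuotientGroup.eq_one_iff, ← QuotientGroup.mk'_apply, map_commutatorElement, commutatorElement_eq_one_iff_mul_comm]
    exact this
  · rw [Subgroup.index_comap_of_surjective _ (QuotientGroup.mk'_surjective V)]
    exact hPi
  · intro x hx
    obtain ⟨k, hk⟩ := hPp ⟨_, hx⟩
    refine ⟨k, ?_⟩
    rw [← QuotientGroup.eq_one_iff, ← QuotientGroup.mk'_apply, map_pow]
    exact congrArg Subtype.val hk

/-- case B -/
theorem caseB [hsol : Group.IsSolvable G] {t p q : ℕ} (ht : t.Prime) (hp : p.Prime) (hq : q.Prime) (htp : t ≠ p)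
    (htq : t ≠ q) (hpq : p ≠ q) {V : Subgroup G} [hVn : V.Normal] (hVt : IsPGroup t V) (V1 : V ≠ ⊥)
    (Vmin : ∀ W : Subgroup G, W.Normal → W ≤ V → W = ⊥ ∨ W = V) (hQ : NSyl (G ⧸ V) t) (nt : ¬ NSyl G t)
    (np : ¬ NSyl G p) (nq : ¬ NSyl G q)
    (degp : ∀ χ : IrrCharacter G, t ∣ charDegree (χ : G → ℂ) → ¬ p ∣ charDegree (χ : G → ℂ))
    (degq : ∀ χ : IrrCharacter G, t ∣ charDegree (χ : G → ℂ) → ¬ q ∣ charDegree (χ : G → ℂ))
    (degpq : ∀ χ : IrrCharacter G, p ∣ charDegree (χ : G → ℂ) → ¬ q ∣ charDegree (χ : G → ℂ)) :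
    ∃ T L : Subgroup G, SB T V L t p q := by
  haveI : Fact t.Prime := ⟨ht⟩
  obtain ⟨T, hTn, hVT, hTc, hTi, hTV⟩ := preimage hQ
  haveI := hTn
  have hTt : IsPGroup t T := by
    rintro ⟨x, hx⟩
    obtain ⟨k, hk⟩ := hTV x hx
    obtain ⟨m, hm⟩ := hVt ⟨_, hk⟩
    refine ⟨k + m, Subtype.ext ?_⟩
    have h1 : (x ^ t ^ k) ^ t ^ m = 1 := congrArg Subtype.val hm
    show x ^ t ^ (k + m) = 1
    rw [pow_add, pow_mul, h1]
  have hcop : (Nat.card T).Coprime T.index := by
    obtain ⟨n, hn⟩ := IsPGroup.iff_card.1 hTt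
    rw [hn]
    exact Nat.Coprime.pow_left _ ((Nat.Prime.coprime_iff_not_dvd ht).2 hTi)
  obtain ⟨L, hL⟩ := Subgroup.exists_right_complement'_of_coprime hcop
  have hcomm : ⁅T, T⁆ = V := by
    rcases Vmin ⁅T, T⁆ inferInstance hTc with h | h
    · exfalso
      apply nt
      refine ⟨T, hTn, ?_, hTt, hTi⟩
      rw [Subgroup.commutator_eq_bot_iff_le_centralizer] at h
      intro x hx y hy
      exact (Subgroup.mem_centralizer_iff.1 (h hx) y hy).symm
    · exact h
  have hVZ : V ≤ centralizer (T : Set G) := by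
    rcases Vmin (V ⊓ centralizer (T : Set G)) inferInstance inf_le_left with h | h
    · exfalso
      -- V ∩ Z(T) is nontrivial
      haveI hVTn : (V.subgroupOf T).Normal := inferInstance
      have h1 : V.subgroupOf T ≠ ⊥ := by
        intro h0
        rw [Subgroup.subgroupOf_eq_bot] at h0
        exact V1 (by rw [← inf_eq_left.2 hVT]; exact disjoint_iff.1 h0)
      haveI : Nontrivial (V.subgroupOf T) := (Subgroup.nontrivial_iff_ne_bot _).2 h1
      -- T acts by conjugation on V.subgroupOf T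
      have h2 := hTt
      obtain ⟨x, hx, hxc⟩ : ∃ x ∈ V.subgroupOf T, x ≠ 1 ∧ x ∈ Subgroup.center T := by
        by_contra hcon
        push Not at hcon
        let act : MulAction T (V.subgroupOf T) := MulAction.compHom _ (MulAut.conjNormal : T →* MulAut (V.subgroupOf T))
        have h3 := hTt.card_modEq_card_fixedPoints (V.subgroupOf T)
        have h4 : IsPGroup t (V.subgroupOf T) := hTt.to_subgroup _
        obtain ⟨n, hn⟩ := IsPGroup.iff_card.1 h4
        have hn0 : n ≠ 0 := by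
          rintro rfl
          rw [pow_zero] at hn
          exact h1 (Subgroup.card_eq_one.1 hn)
        have h5 : t ∣ Nat.card (V.subgroupOf T) := hn ▸ dvd_pow_self t hn0
        have h6 : t ∣ Nat.card (MulAction.fixedPoints T (V.subgroupOf T)) :=
          (Nat.modEq_zero_iff_dvd.1 (h3.symm.trans (Nat.modEq_zero_iff_dvd.2 h5)))
        have h7 : MulAction.fixedPoints T (V.subgroupOf T) = {1} := by
          ext y
          constructor
          · intro hy
            by_contra hy1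
            refine hcon y.1 y.2 (fun h => hy1 (Subtype.ext h)) ?_
            rw [Subgroup.mem_center_iff]
            intro g
            have h8 := congrArg Subtype.val (hy g)
            have h9 : g * (y : T) * g⁻¹ = y := h8
            exact mul_inv_eq_iff_eq_mul.1 h9
          · rintro rfl g
            exact map_one (MulAut.conjNormal g : MulAut (V.subgroupOf T))
        rw [h7, Nat.card_unique] at h6
        exact ht.one_lt.ne' (Nat.dvd_one.1 h6)
      have h3 : (x : G) ∈ V ⊓ centralizer (T : Set G) := by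
        refine ⟨hx, Subgroup.mem_centralizer_iff.2 ?_⟩
        intro y hy
        have := Subgroup.mem_center_iff.1 hxc.2 ⟨y, hy⟩
        exact congrArg Subtype.val this
      rw [h] at h3
      exact hxc.1 (Subtype.ext (Subgroup.mem_bot.1 h3))
    · exact inf_eq_left.1 h
  refine ⟨T, L, hsol, ht, hp, hq, htp, htq, hpq, hTn, hVn, hTt, disjoint_iff.1 hL.disjoint, ?_, ?_, hcomm, V1, ?_, Vmin,
    degp, degq, degpq, np, nq⟩
  · rw [Subgroup.sup_eq_closure_mul, hL.mul_eq]
    exact Subgroup.closure_univ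
  · have : Nat.card L = T.index := by
      have h1 := hL.card_mul
      have h2 := T.card_mul_index
      exact Nat.eq_of_mul_eq_mul_left (Nat.card_pos (α := T)) (h1.trans h2.symm)
    rw [this]; exact hcop
  · intro v hv x hx
    exact (Subgroup.mem_centralizer_iff.1 (hVZ hv) x hx).symm

/-- case A -/
theorem caseA [hsol : Group.IsSolvable G] {t s p q : ℕ} (ht : t.Prime) (hs : s.Prime) (hp : p.Prime) (hq : q.Prime)
    (htp : t ≠ p) (htq : t ≠ q) (hts : t ≠ s) (hpq : p ≠ q) {V : Subgroup G} [hVn : V.Normal] (hVs : IsPGroup s V)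
    (Vab : ∀ a ∈ V, ∀ b ∈ V, a * b = b * a)
    (Vmin : ∀ W : Subgroup G, W.Normal → W ≤ V → W = ⊥ ∨ W = V) (hQ : NSyl (G ⧸ V) t) (nt : ¬ NSyl G t)
    (np : ¬ NSyl G p) (nq : ¬ NSyl G q)
    (degp : ∀ χ : IrrCharacter G, t ∣ charDegree (χ : G → ℂ) → ¬ p ∣ charDegree (χ : G → ℂ))
    (degq : ∀ χ : IrrCharacter G, t ∣ charDegree (χ : G → ℂ) → ¬ q ∣ charDegree (χ : G → ℂ)) :
    ∃ T L : Subgroup G, SA T V L t s p q := by
  haveI : Fact t.Prime := ⟨ht⟩
  haveI : Fact s.Prime := ⟨hs⟩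
  obtain ⟨S, hSn, hVS, hSc, hSi, hSV⟩ := preimage hQ
  haveI := hSn
  obtain ⟨P⟩ : Nonempty (Sylow t S) := inferInstance
  obtain ⟨T, hT⟩ : ∃ T : Subgroup G, T = (P : Subgroup S).map S.subtype := ⟨_, rfl⟩
  have hTS : T ≤ S := by rw [hT]; exact Subgroup.map_subtype_le _
  have hTt : IsPGroup t T := by rw [hT]; exact P.2.map _
  have hTrel : ¬ t ∣ T.relIndex S := by
    have h1 : T.relIndex S = (P : Subgroup S).index := by
      have h2 : T.subgroupOf S = (P : Subgroup S) := by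
        rw [hT]
        exact Subgroup.comap_map_eq_self_of_injective S.subtype_injective _
      rw [Subgroup.relIndex, h2]
    rw [h1]
    exact P.not_dvd_index
  have hTi : ¬ t ∣ T.index := by
    rw [← Subgroup.relIndex_mul_index hTS]
    intro h
    rcases (Nat.Prime.dvd_mul ht).1 h with h | h
    · exact hTrel h
    · exact hSi h
  have hVT : V ⊓ T = ⊥ := by
    rw [eq_bot_iff]
    intro x hx
    obtain ⟨k, hk⟩ := hVs ⟨x, hx.1⟩
    obtain ⟨m, hm⟩ := hTt ⟨x, hx.2⟩
    have hk' : x ^ s ^ k = 1 := congrArg Subtype.val hk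
    have hm' : x ^ t ^ m = 1 := congrArg Subtype.val hm
    have h1 : orderOf x ∣ Nat.gcd (s ^ k) (t ^ m) := Nat.dvd_gcd (orderOf_dvd_of_pow_eq_one hk') (orderOf_dvd_of_pow_eq_one hm')
    rw [Nat.Coprime.gcd_eq_one (Nat.Coprime.pow _ _ ((Nat.coprime_primes hs ht).2 hts.symm)), Nat.dvd_one, orderOf_eq_one_iff] at h1
    exact Subgroup.mem_bot.2 h1
  have hTab : ∀ a ∈ T, ∀ b ∈ T, a * b = b * a := by
    intro a ha b hb
    have h1 : a * b * a⁻¹ * b⁻¹ ∈ V ⊓ T := ⟨hSc (Subgroup.commutator_mem_commutator (hTS ha) (hTS hb)),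
      T.mul_mem (T.mul_mem (T.mul_mem ha hb) (T.inv_mem ha)) (T.inv_mem hb)⟩
    rw [hVT, Subgroup.mem_bot] at h1
    have h2 : a * b * (b * a)⁻¹ = 1 := by rw [← h1]; group
    exact mul_inv_eq_one.1 h2
  -- S = V T
  have hST : V ⊔ T = S := by
    apply le_antisymm (sup_le hVS hTS)
    -- the index of V ⊔ T in S is a power of t (S / V is a t-group) and prime to t
    have h1 : ¬ t ∣ (V ⊔ T).relIndex S := fun h => hTrel (h.trans
      ⟨T.relIndex (V ⊔ T), by rw [mul_comm, Subgroup.relIndex_mul_relIndex _ _ _ le_sup_right (sup_le hVS hTS)]⟩)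
    have h3 : (V ⊔ T).relIndex S ∣ V.relIndex S :=
      ⟨V.relIndex (V ⊔ T), by rw [mul_comm, Subgroup.relIndex_mul_relIndex _ _ _ le_sup_left (sup_le hVS hTS)]⟩
    have h4 : IsPGroup t (S ⧸ V.subgroupOf S) := by
      intro x
      obtain ⟨⟨g, hg⟩, rfl⟩ := QuotientGroup.mk_surjective x
      obtain ⟨k, hk⟩ := hSV g hg
      refine ⟨k, ?_⟩
      rw [← QuotientGroup.mk_pow, QuotientGroup.eq_one_iff]
      exact hk
    obtain ⟨n, hn⟩ := IsPGroup.iff_card.1 h4
    have h5 : V.relIndex S = t ^ n := hn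
    rw [h5] at h3
    obtain ⟨k, -, hk⟩ := (Nat.dvd_prime_pow ht).1 h3
    have hk0 : k = 0 := by
      by_contra h0
      exact h1 (hk ▸ dvd_pow_self t h0)
    rw [hk0, pow_zero] at hk
    exact Subgroup.relIndex_eq_one.1 hk
  obtain ⟨L, hL⟩ : ∃ L : Subgroup G, L = normalizer (T : Set G) := ⟨_, rfl⟩
  have hTL : T ≤ L := by rw [hL]; exact Subgroup.le_normalizer
  have hVL' : V ⊔ L = ⊤ := by
    have h1 := Sylow.normalizer_sup_eq_top (N := S) P
    rw [← hT, ← hL] at h1
    rw [eq_top_iff, ← h1]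
    apply sup_le le_sup_right
    rw [← hST]
    exact sup_le le_sup_left (hTL.trans le_sup_right)
  -- C_V(T)
  have hC : V ⊓ centralizer (T : Set G) = V ⊓ centralizer (S : Set G) := by
    apply le_antisymm
    · apply le_inf inf_le_left
      intro x hx
      rw [Subgroup.mem_centralizer_iff]
      intro y hy
      rw [SetLike.mem_coe, ← hST] at hy
      obtain ⟨v, hv, a, ha, rfl⟩ := Subgroup.mem_sup_of_normal_left.1 hy
      rw [mul_assoc, Subgroup.mem_centralizer_iff.1 hx.2 a ha, ← mul_assoc, Vab v hv x hx.1, mul_assoc]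
    · exact inf_le_inf_left _ (Subgroup.centralizer_le hTS)
  have hCT : V ⊓ centralizer (T : Set G) = ⊥ := by
    rcases Vmin (V ⊓ centralizer (S : Set G)) inferInstance inf_le_left with h | h
    · rw [hC, h]
    · exfalso
      apply nt
      have h1 : V ≤ centralizer (T : Set G) := (inf_eq_left.1 h).trans (Subgroup.centralizer_le hTS)
      -- T is normalised by V and T, so normal in S
      have h2 : S ≤ L := by
        rw [← hST]
        apply sup_le _ hTL
        intro v hv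
        rw [hL, Subgroup.mem_normalizer_iff]
        have h3 : ∀ v ∈ V, ∀ a ∈ T, v * a * v⁻¹ = a := fun v hv a ha => by
          rw [← Subgroup.mem_centralizer_iff.1 (h1 hv) a ha, mul_inv_cancel_right]
        intro a
        constructor
        · intro ha
          rw [h3 v hv a ha]; exact ha
        · intro ha
          have h4 := h3 v⁻¹ (V.inv_mem hv) _ ha
          have h5 : v⁻¹ * (v * a * v⁻¹) * v⁻¹⁻¹ = a := by group
          rw [h5] at h4
          rw [h4]; exact ha
      have h3 : L = ⊤ := by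
        rw [← hVL']
        exact (sup_eq_right.2 (hVS.trans h2)).symm
      rw [hL] at h3
      refine ⟨T, Subgroup.normalizer_eq_top_iff.1 h3, hTab, hTt, hTi⟩
  have hVL : V ⊓ L = ⊥ := by
    rw [eq_bot_iff, ← hCT]
    apply le_inf inf_le_left
    intro x hx
    rw [Subgroup.mem_centralizer_iff]
    intro a ha
    have hxL : x ∈ normalizer (T : Set G) := hL ▸ hx.2
    have h1 : x * a * x⁻¹ ∈ T := (Subgroup.mem_normalizer_iff.1 hxL a).1 ha
    have h2 : x * a * x⁻¹ * a⁻¹ ∈ V ⊓ T := by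
      refine ⟨?_, T.mul_mem h1 (T.inv_mem ha)⟩
      have h3 : a * x⁻¹ * a⁻¹ ∈ V := hVn.conj_mem _ (V.inv_mem hx.1) a
      have h4 : x * a * x⁻¹ * a⁻¹ = x * (a * x⁻¹ * a⁻¹) := by group
      rw [h4]
      exact V.mul_mem hx.1 h3
    rw [hVT, Subgroup.mem_bot] at h2
    have h5 : x * a = a * x := by
      have h6 : x * a * x⁻¹ = a := by
        have := congrArg (· * a) h2
        simpa using this
      exact mul_inv_eq_iff_eq_mul.1 h6
    exact h5.symm
  refine ⟨T, L, hsol, ht, hs, hp, hq, htp, htq, hts, hpq, hVn, Vab, hVs, hVL, hVL', hTL, hL.le, hTt, hTi, ?_, degp, degq,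
    np, nq⟩
  intro v hv hva
  have : v ∈ V ⊓ centralizer (T : Set G) := ⟨hv, Subgroup.mem_centralizer_iff.2 hva⟩
  rw [hCT] at this
  exact Subgroup.mem_bot.1 this

end Cfsg.Agent.Lib.H16PalM
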