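import Cfsg.Agent.Lib.H16Pal0

set_option autoImplicit false
set_option linter.all false

namespace Cfsg.Agent.Lib.H16PalP10

open Subgroup Cfsg Cfsg.Agent.Lib Cfsg.Agent.Lib.CharBasic Cfsg.Agent.Lib.Clifford Cfsg.Agent.Lib.H16Pal0

universe u v

/-- the statement of Lemma A (the black box), both types in the same universe -/
def LemA : Prop :=
  ∀ (H : Type u) [Group H] [Finite H] [Group.IsSolvable H] (X : Type u) [CommGroup X] [Finite X]
    [MulDistribMulAction H X] [FaithfulSMul H X] (s d : ℕ), s.Prime → Nat.card X = s ^ d → ∀ (p q : ℕ),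
    p.Prime → q.Prime → p ≠ q → p ∣ Nat.card H → q ∣ Nat.card H →
    (∀ x : X, x ≠ 1 → NAS p ⊤ (MulAction.stabilizer H x)) →
    (∀ x : X, x ≠ 1 → NAS q ⊤ (MulAction.stabilizer H x)) →
    ∃ χ : IrrCharacter H, p * q ∣ charDegree (χ : H → ℂ)

variable {G : Type u} [Group G]

/-- the action of `G` on the linear characters of a normal subgroup -/
noncomputable def act (V : Subgroup G) [V.Normal] : G →* MulAut (V →* ℂˣ) where
  toFun g :=
    { toFun := fun f => f.comp (MulAut.conjNormal g⁻¹ : MulAut V).toMonoidHom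
      invFun := fun f => f.comp (MulAut.conjNormal g : MulAut V).toMonoidHom
      left_inv := by intro f; ext v; simp
      right_inv := by intro f; ext v; simp
      map_mul' := by intro f f'; ext v; simp }
  map_one' := by ext f v; simp
  map_mul' := by intro a b; ext f v; simp

theorem act_apply (V : Subgroup G) [V.Normal] (g : G) (f : V →* ℂˣ) (v : V) :
    act V g f v = f ((MulAut.conjNormal g⁻¹ : MulAut V) v) := rfl

theorem sep {V : Type u} [Group V] [Finite V] (hV : ∀ a b : V, a * b = b * a) {v w : V}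
    (h : ∀ f : V →* ℂˣ, f v = f w) : v = w := by
  have h1 : IsConj v w := by
    rw [isConj_iff_forall_irr]
    intro χ
    have h2 := χ.2.one_eq_one_of_comm hV
    obtain ⟨f, hf⟩ := χ.2.isCharacter.exists_hom h2
    rw [hf, hf, h f]
  obtain ⟨c, hc⟩ := isConj_iff.1 h1
  rw [← hc, hV c v]
  simp

theorem act_eq_one {V : Subgroup G} [Finite V] [V.Normal] (hV : ∀ a ∈ V, ∀ b ∈ V, a * b = b * a) {g : G}
    (h : act V g = 1) : ∀ v ∈ V, g * v = v * g := by
  intro v hv
  have h1 : (MulAut.conjNormal g⁻¹ : MulAut V) ⟨v, hv⟩ = ⟨v, hv⟩ := by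
    apply sep (fun a b => Subtype.ext (hV a a.2 b b.2))
    intro f
    have := congrArg (fun e : MulAut (V →* ℂˣ) => e f ⟨v, hv⟩) h
    simpa [act_apply] using this
  have h2 := congrArg (Subtype.val) h1
  simp at h2
  calc g * v = g * (g⁻¹ * v * g) := by rw [h2]
    _ = v * g := by group

theorem stab_iff {V : Subgroup G} [V.Normal] (g : G) (x : V →* ℂˣ) :
    act V g x = x ↔ g ∈ inertia V (fun v => ((x v : ℂˣ) : ℂ)) := by
  rw [mem_inertia']
  constructor
  · intro h n
    have h1 : act V g x ((MulAut.conjNormal g : MulAut V) n) = x ((MulAut.conjNormal g : MulAut V) n) := by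
      rw [h]
    rw [act_apply] at h1
    have h2 : (MulAut.conjNormal g⁻¹ : MulAut V) ((MulAut.conjNormal g : MulAut V) n) = n := by
      simp
    rw [h2] at h1
    exact congrArg (Units.val) h1.symm
  · intro h
    ext v
    rw [act_apply]
    have h1 := h ((MulAut.conjNormal g⁻¹ : MulAut V) v)
    rw [← h1]
    congr 2
    ext
    simp [mul_assoc]

/-- a group of automorphisms acts -/
@[reducible] def rangeAct (V : Subgroup G) (H : Subgroup (MulAut (V →* ℂˣ))) :
    MulDistribMulAction H (V →* ℂˣ) where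
  smul h x := (h : MulAut (V →* ℂˣ)) x
  one_smul x := rfl
  mul_smul a b x := rfl
  smul_one a := by
    change (a : MulAut (V →* ℂˣ)) 1 = 1
    have h : (a : MulAut (V →* ℂˣ)) (1 * 1) = (a : MulAut (V →* ℂˣ)) 1 * (a : MulAut (V →* ℂˣ)) 1 :=
      map_mul (a : MulAut (V →* ℂˣ)) 1 1
    have h0 : ((1 : V →* ℂˣ) * 1) = 1 := by ext v; simp
    rw [h0] at h
    apply MonoidHom.ext
    intro v
    have h1 := congrArg (fun f : V →* ℂˣ => f v) h
    simp only [MonoidHom.mul_apply] at h1
    exact left_eq_mul.1 h1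
  smul_mul a x y := map_mul (a : MulAut (V →* ℂˣ)) x y

theorem p10 [Finite G] (lemA : LemA.{u}) [Group.IsSolvable G] {V L : Subgroup G} [V.Normal]
    (hV : ∀ a ∈ V, ∀ b ∈ V, a * b = b * a) {s p q : ℕ}
    (hs : s.Prime) (hVs : IsPGroup s V) (hp : p.Prime) (hq : q.Prime) (hpq : p ≠ q)
    (hN : ∀ lam : V → ℂ, IsIrrCharacter V lam → lam ≠ 1 → NAS p L (inertia V lam ⊓ L) ∧ NAS q L (inertia V lam ⊓ L))
    (hcp : ¬ CS p L V) (hcq : ¬ CS q L V) : ∃ χ : IrrCharacter L, p * q ∣ charDegree (χ : L → ℂ) := by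
  classical
  haveI := Fact.mk hs
  have hVc : ∀ a b : V, a * b = b * a := fun a b => Subtype.ext (hV a a.2 b b.2)
  obtain ⟨n, hn⟩ := IsPGroup.iff_card.1 hVs
  have hcom : commutator V = ⊥ := by
    rw [_root_.commutator_eq_bot_iff_center_eq_top, Subgroup.eq_top_iff']
    intro a
    rw [Subgroup.mem_center_iff]
    intro b
    exact hVc b a
  have hcX : Nat.card (V →* ℂˣ) = s ^ n := by
    rw [card_hom_units, hcom, Subgroup.index_bot, hn]
  haveI hfX : Finite (V →* ℂˣ) := Nat.finite_of_card_ne_zero (by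
    rw [hcX]; exact pow_ne_zero _ hs.ne_zero)
  set φ : L →* MulAut (V →* ℂˣ) := (act V).comp L.subtype with hφ
  haveI : Finite (MulAut (V →* ℂˣ)) := by
    apply Finite.of_injective (fun e : MulAut (V →* ℂˣ) => (e : (V →* ℂˣ) → (V →* ℂˣ)))
    exact DFunLike.coe_injective
  haveI hsol : Group.IsSolvable φ.range :=
    solvable_of_surjective φ.rangeRestrict_surjective
  letI act1 : MulDistribMulAction φ.range (V →* ℂˣ) := rangeAct V φ.range
  haveI : FaithfulSMul φ.range (V →* ℂˣ) := ⟨by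
    intro a b h
    apply Subtype.ext
    ext1 x
    exact h x⟩
  have hcard : ∀ r : ℕ, r.Prime → ¬ CS r L V → r ∣ Nat.card φ.range := by
    intro r hr hcr
    by_contra hnd
    apply hcr
    haveI := Fact.mk hr
    obtain ⟨U0⟩ : Nonempty (Sylow r L) := inferInstance
    refine ⟨(U0 : Subgroup L).map L.subtype, ?_, U0.isPGroup'.map _, ?_, ?_⟩
    · rintro _ ⟨a, -, rfl⟩
      exact a.2
    · have h1 : ((U0 : Subgroup L).map L.subtype).subgroupOf L = U0 := by
        rw [Subgroup.subgroupOf, Subgroup.comap_map_eq_self_of_injective L.subtype_injective]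
      rw [Subgroup.relIndex, h1]
      exact U0.not_dvd_index
    · rintro _ ⟨a, ha, rfl⟩ v hv
      apply act_eq_one hV _ v hv
      have h1 : φ.rangeRestrict a = 1 := by
        rw [← orderOf_eq_one_iff]
        obtain ⟨k, hk⟩ := (IsPGroup.iff_orderOf.1 U0.isPGroup') ⟨a, ha⟩
        have h2 : orderOf (φ.rangeRestrict a) ∣ r ^ k := by
          rw [← hk]
          have := orderOf_map_dvd φ.rangeRestrict a
          rwa [← Subgroup.orderOf_mk a ha] at this
        have h3 : orderOf (φ.rangeRestrict a) ∣ Nat.card φ.range := orderOf_dvd_natCard _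
        exact Nat.eq_one_of_dvd_coprimes (((Nat.Prime.coprime_iff_not_dvd hr).2 hnd).pow_left k) h2 h3
      exact congrArg Subtype.val h1
  have hpart : ∀ r : ℕ, r.Prime →
      (∀ lam : V → ℂ, IsIrrCharacter V lam → lam ≠ 1 → NAS r L (inertia V lam ⊓ L)) →
      ∀ x : V →* ℂˣ, x ≠ 1 → NAS r ⊤ (MulAction.stabilizer φ.range x) := by
    intro r hr hNr x hx
    have hl1 : (fun v => ((x v : ℂˣ) : ℂ)) ≠ (1 : V → ℂ) := by
      intro h
      apply hx
      ext v
      exact congrFun h v
    obtain ⟨U, hUA, hAN, hUp, hUi, hUc⟩ := hNr _ (isIrrCharacter_of_unitsHom x) hl1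
    have hUL : U ≤ L := hUA.trans inf_le_right
    have hst : ∀ l : L, φ.rangeRestrict l ∈ MulAction.stabilizer φ.range x ↔
        (l : G) ∈ inertia V (fun v => ((x v : ℂˣ) : ℂ)) := by
      intro l
      rw [MulAction.mem_stabilizer_iff, ← stab_iff]
      rfl
    refine ⟨(U.subgroupOf L).map φ.rangeRestrict, ?_, ?_, ?_, ?_, ?_⟩
    · rintro _ ⟨a, ha, rfl⟩
      exact (hst a).2 (hUA ha).1
    · intro h hh
      obtain ⟨l, rfl⟩ := φ.rangeRestrict_surjective h
      have hl : (l : G) ∈ normalizer (U : Set G) := hAN ⟨(hst l).1 hh, l.2⟩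
      rw [Subgroup.mem_normalizer_iff] at hl ⊢
      intro y
      constructor
      · rintro ⟨a, ha, rfl⟩
        refine ⟨l * a * l⁻¹, ?_, by simp⟩
        exact (hl a).1 ha
      · rintro ⟨a, ha, hay⟩
        refine ⟨l⁻¹ * a * l, ?_, ?_⟩
        · have := (hl ((l : G)⁻¹ * a * l)).2 (by
            have h3 : (l : G) * ((l : G)⁻¹ * a * l) * (l : G)⁻¹ = a := by group
            rw [h3]; exact ha)
          exact this
        · rw [map_mul, map_mul, hay, map_inv]
          group
    · exact (hUp.comap_of_injective L.subtype L.subtype_injective).map _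
    · rw [Subgroup.relIndex_top_right]
      intro hd
      exact hUi (hd.trans (Subgroup.index_map_dvd _ φ.rangeRestrict_surjective))
    · rintro _ ⟨a, ha, rfl⟩ _ ⟨b, hb, rfl⟩
      rw [← map_mul, ← map_mul]
      congr 1
      exact Subtype.ext (hUc a ha b hb)
  obtain ⟨χ, hχ⟩ := lemA φ.range (V →* ℂˣ) s n hs hcX p q hp hq hpq (hcard p hp hcp) (hcard q hq hcq)
    (hpart p hp (fun lam h1 h2 => (hN lam h1 h2).1)) (hpart q hq (fun lam h1 h2 => (hN lam h1 h2).2))
  refine ⟨⟨_, χ.2.comp_surjective φ.rangeRestrict φ.rangeRestrict_surjective⟩, ?_⟩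
  have h1 : charDegree (fun l : L => (χ : φ.range → ℂ) (φ.rangeRestrict l)) = charDegree (χ : φ.range → ℂ) := by
    unfold charDegree
    simp
  change p * q ∣ charDegree (fun l : L => (χ : φ.range → ℂ) (φ.rangeRestrict l))
  rw [h1]
  exact hχ

end Cfsg.Agent.Lib.H16PalP10
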