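import Cfsg.Agent.Lib.BG08a
import Cfsg.Agent.Lib.H32Cores
import Cfsg.Agent.Lib.H16Pal0

set_option autoImplicit false

/-!
# Piece P2 of Palfy's three primes theorem (S4847; helper17)

`H` solvable with commuting abelian Sylow subgroups `U` (for `p`) and `W` (for `q`); `R = O_{p,q}'(H)`.
Then `RU` and `RW` are normal in `H`.
-/

namespace Cfsg.Agent.Lib.H16PalP2

open Cfsg Subgroup
open Cfsg.Agent.Lib.LocBase

universe u

/-- a Sylow subgroup contains every normal `p`-subgroup -/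
theorem pCore_le_of_sylow {Q : Type u} [Group Q] [Finite Q] {p : ℕ} (hp : p.Prime) {U : Subgroup Q}
    (hU : IsPGroup p U) (hUi : ¬ p ∣ U.index) : pCore p Q ≤ U := by
  have : Fact p.Prime := ⟨hp⟩
  have h1 := (isPGroup_pCore p Q).le_sylow_of_normal (hU.toSylow hUi)
  exact h1

theorem key {Q : Type u} [Group Q] [Finite Q] [Group.IsSolvable Q] {p q : ℕ} (hp : p.Prime)
    (hq : q.Prime) {U W : Subgroup Q} (hU : IsPGroup p U) (hUi : ¬ p ∣ U.index)
    (hW : IsPGroup q W) (hWi : ¬ q ∣ W.index) (hUa : ∀ a ∈ U, ∀ b ∈ U, a * b = b * a)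
    (hWa : ∀ a ∈ W, ∀ b ∈ W, a * b = b * a) (hUW : ∀ a ∈ U, ∀ b ∈ W, a * b = b * a)
    (hπ : piCore {r | r ≠ p ∧ r ≠ q} Q = ⊥) : U.Normal ∧ W.Normal := by
  have : Fact p.Prime := ⟨hp⟩
  have : Fact q.Prime := ⟨hq⟩
  have h1 : fittingOf (⊤ : Subgroup Q) ≤ U ⊔ W := by
    rw [BG08.fittingOf_eq_iSup]
    apply iSup_le
    rintro ⟨r, hr⟩
    rw [pCoreOf_top]
    by_cases hrp : r = p
    · subst hrp
      exact (pCore_le_of_sylow hp hU hUi).trans le_sup_left
    by_cases hrq : r = q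
    · subst hrq
      exact (pCore_le_of_sylow hq hW hWi).trans le_sup_right
    have : Fact r.Prime := ⟨hr⟩
    have h2 : pCore r Q ≤ piCore {r | r ≠ p ∧ r ≠ q} Q := by
      apply H32Cores.le_piCore
      · have := pCore_characteristic r Q
        infer_instance
      · intro s hs hd
        obtain ⟨n, hn⟩ := IsPGroup.iff_card.mp (isPGroup_pCore r Q)
        rw [hn] at hd
        have := (Nat.prime_dvd_prime_iff_eq hs hr).mp (hs.dvd_of_dvd_pow hd)
        subst this
        exact ⟨hrp, hrq⟩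
    rw [hπ] at h2
    exact h2.trans bot_le
  have h2 : U ⊔ W ≤ centralizer ((U ⊔ W : Subgroup Q) : Set Q) := by
    rw [sup_le_iff, Subgroup.le_centralizer_iff, Subgroup.le_centralizer_iff (H := W)]
    refine ⟨sup_le ?_ ?_, sup_le ?_ ?_⟩
    · intro a ha
      rw [mem_centralizer_iff]
      exact fun b hb => hUa b hb a ha
    · intro a ha
      rw [mem_centralizer_iff]
      exact fun b hb => hUW b hb a ha
    · intro a ha
      rw [mem_centralizer_iff]
      exact fun b hb => (hUW a ha b hb).symm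
    · intro a ha
      rw [mem_centralizer_iff]
      exact fun b hb => hWa b hb a ha
  have h3 : U ⊔ W ≤ fittingOf (⊤ : Subgroup Q) := by
    refine le_trans ?_ (BG08.inf_centralizer_fittingOf_le (H := (⊤ : Subgroup Q))
      inferInstance)
    exact le_inf le_top (h2.trans (centralizer_le h1))
  constructor
  · have h4 : U ≤ pCoreOf p (⊤ : Subgroup Q) := BG08.le_pCoreOf_of_le_fittingOf (le_sup_left.trans h3) hU
    rw [pCoreOf_top] at h4
    have h5 : U = pCore p Q := le_antisymm h4 (pCore_le_of_sylow hp hU hUi)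
    rw [h5]
    have := pCore_characteristic p Q
    infer_instance
  · have h4 : W ≤ pCoreOf q (⊤ : Subgroup Q) := BG08.le_pCoreOf_of_le_fittingOf (le_sup_right.trans h3) hW
    rw [pCoreOf_top] at h4
    have h5 : W = pCore q Q := le_antisymm h4 (pCore_le_of_sylow hq hW hWi)
    rw [h5]
    have := pCore_characteristic q Q
    infer_instance

/-- P2 -/
theorem p2 {H : Type u} [Group H] [Finite H] [Group.IsSolvable H] {p q : ℕ} (hp : p.Prime) (hq : q.Prime)
    (hpq : p ≠ q) {U W : Subgroup H} (hU : IsPGroup p U) (hUi : ¬ p ∣ U.index) (hW : IsPGroup q W)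
    (hWi : ¬ q ∣ W.index) (hUa : ∀ a ∈ U, ∀ b ∈ U, a * b = b * a) (hWa : ∀ a ∈ W, ∀ b ∈ W, a * b = b * a)
    (hUW : ∀ a ∈ U, ∀ b ∈ W, a * b = b * a) :
    ∃ R : Subgroup H, R.Normal ∧ ¬ p ∣ Nat.card R ∧ ¬ q ∣ Nat.card R ∧ (R ⊔ U).Normal ∧ (R ⊔ W).Normal := by
  set π : Set ℕ := {r | r ≠ p ∧ r ≠ q} with hπ
  have hRn : (piCore π H).Normal := inferInstance
  set f := QuotientGroup.mk' (piCore π H) with hf
  have hfs : Function.Surjective f := QuotientGroup.mk'_surjective _
  have h0 : ∀ A : Subgroup H, (A.map f).index ∣ A.index := fun A =>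
    Subgroup.index_map_dvd A hfs
  obtain ⟨h1, h2⟩ := key (Q := H ⧸ piCore π H) hp hq (U := U.map f) (W := W.map f) (hU.map f)
    (fun h => hUi (h.trans (h0 U))) (hW.map f) (fun h => hWi (h.trans (h0 W)))
    (by
      rintro _ ⟨a, ha, rfl⟩ _ ⟨b, hb, rfl⟩
      rw [← map_mul, ← map_mul, hUa a ha b hb])
    (by
      rintro _ ⟨a, ha, rfl⟩ _ ⟨b, hb, rfl⟩
      rw [← map_mul, ← map_mul, hWa a ha b hb])
    (by
      rintro _ ⟨a, ha, rfl⟩ _ ⟨b, hb, rfl⟩
      rw [← map_mul, ← map_mul, hUW a ha b hb])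
    (H32Cores.piCore_quotient_eq_bot π)
  have h3 : ∀ A : Subgroup H, (A.map f).Normal → (piCore π H ⊔ A).Normal := by
    intro A hA
    have h4 : (A.map f).comap f = piCore π H ⊔ A := by
      rw [Subgroup.comap_map_eq, hf, QuotientGroup.ker_mk', sup_comm]
    rw [← h4]
    infer_instance
  refine ⟨piCore π H, hRn, fun h => ?_, fun h => ?_, h3 U h1, h3 W h2⟩
  · exact (H32Cores.piCore_primes π H p hp h).1 rfl
  · exact (H32Cores.piCore_primes π H q hq h).2 rfl

end Cfsg.Agent.Lib.H16PalP2
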