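import Cfsg.Agent.Lib.H16PalP1

/-! Piece P3 of S4847 (helper3): the Zsigmondy exceptions. -/

set_option autoImplicit false
set_option linter.all false

namespace Cfsg.Agent.Lib.H16PalP3

open Subgroup Cfsg Cfsg.Agent.Lib Cfsg.Agent.Lib.H16Pal0 Cfsg.Agent.Lib.H16PalP1

universe u v

variable {H : Type u} [Group H] [Finite H] {X : Type v} [CommGroup X] [Finite X] [MulDistribMulAction H X]

/-- fixed point congruence on an invariant subgroup -/
theorem cong {p : ℕ} (hp : p.Prime) {U : Subgroup H} (hU : IsPGroup p U) {C : Subgroup X}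
    (hinv : ∀ g ∈ U, ∀ y ∈ C, g • y ∈ C) :
    Nat.card C ≡ Nat.card (C ⊓ Fx X U : Subgroup X) [MOD p] := by
  haveI : Fact p.Prime := ⟨hp⟩
  letI : MulAction U C :=
    { smul := fun g y => ⟨(g : H) • (y : X), hinv g g.2 y y.2⟩
      one_smul := fun y => Subtype.ext (one_smul H (y : X))
      mul_smul := fun g h y => Subtype.ext (mul_smul (g : H) (h : H) (y : X)) }
  have h1 := hU.card_modEq_card_fixedPoints C
  have h2 : Nat.card (MulAction.fixedPoints U C) = Nat.card (C ⊓ Fx X U : Subgroup X) := by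
    refine Nat.card_congr ⟨fun y => ⟨((y : C) : X), (y : C).2, fun g hg => ?_⟩,
      fun y => ⟨⟨(y : X), y.2.1⟩, fun g => Subtype.ext (y.2.2 g g.2)⟩, fun y => rfl, fun y => rfl⟩
    exact congrArg Subtype.val (y.2 ⟨g, hg⟩)
  rw [h2] at h1
  exact h1

/-- the norm map -/
noncomputable def nrm (X : Type v) [CommGroup X] [MulDistribMulAction H X] (U : Subgroup H) : X →* X :=
  letI := Fintype.ofFinite U
  { toFun := fun y => ∏ g : U, (g : H) • y
    map_one' := by simp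
    map_mul' := by
      intro a b
      rw [← Finset.prod_mul_distrib]
      exact Finset.prod_congr rfl (fun g _ => smul_mul' _ _ _) }

theorem nrm_apply (U : Subgroup H) [Fintype U] (y : X) : nrm X U y = ∏ g : U, (g : H) • y := by
  show (@Finset.prod _ _ _ (@Finset.univ _ (Fintype.ofFinite U)) _) = _
  congr 1
  apply congrArg (fun i : Fintype U => @Finset.univ _ i)
  exact Subsingleton.elim _ _

theorem nrm_mem (U : Subgroup H) (y : X) : nrm X U y ∈ Fx X U := by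
  classical
  letI := Fintype.ofFinite U
  intro h hh
  rw [nrm_apply, Finset.smul_prod']
  refine Fintype.prod_bijective (fun g : U => (⟨h, hh⟩ : U) * g) (Group.mulLeft_bijective _) _ _ ?_
  intro g
  show h • (g : H) • y = ((⟨h, hh⟩ : U) * g : U) • y
  rw [← mul_smul]; rfl

theorem nrm_fixed {U : Subgroup H} {y : X} (hy : y ∈ Fx X U) : nrm X U y = y ^ Nat.card U := by
  classical
  letI := Fintype.ofFinite U
  have h1 : ∏ g : U, (g : H) • y = ∏ _g : U, y := Finset.prod_congr rfl (fun (g : U) _ => hy (g : H) g.2)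
  rw [nrm_apply, h1, Finset.prod_const, Finset.card_univ, Nat.card_eq_fintype_card]

theorem nrm_smul {U : Subgroup H} {h : H} (hc : ∀ g ∈ U, g * h = h * g) (y : X) :
    nrm X U (h • y) = h • nrm X U y := by
  classical
  letI := Fintype.ofFinite U
  rw [nrm_apply, nrm_apply, Finset.smul_prod']
  refine Finset.prod_congr rfl (fun g _ => ?_)
  rw [← mul_smul, ← mul_smul, hc g g.2]

/-- the main step -/
theorem step {s d p : ℕ} (hs : s.Prime) (hX : Nat.card X = s ^ d) (hp : p.Prime) (hps : p ≠ s) {U W : Subgroup H}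
    (hU : IsPGroup p U) (hW : IsPGroup s W) (hUW : ∀ a ∈ U, ∀ b ∈ W, a * b = b * a)
    (hne : Fx X U ≠ ⊤) : ∃ j, 0 < j ∧ s ^ j ∣ Nat.card (Fx X W) ∧ s ^ j ≡ 1 [MOD p] := by
  haveI : Fact p.Prime := ⟨hp⟩
  haveI : Fact s.Prime := ⟨hs⟩
  have hXp : IsPGroup s X := IsPGroup.of_card hX
  set M : Subgroup X := (nrm X U).ker with hM
  -- M ∩ Fx U = 1
  have h1 : M ⊓ Fx X U = ⊥ := by
    rw [eq_bot_iff]
    rintro y ⟨hy1, hy2⟩
    rw [Subgroup.mem_bot]
    have h3 : y ^ Nat.card U = 1 := by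
      rw [← nrm_fixed hy2]; exact hy1
    obtain ⟨n, hn⟩ := IsPGroup.iff_card.1 hU
    obtain ⟨m, hm⟩ := hXp y
    have h4 : orderOf y ∣ p ^ n := hn ▸ orderOf_dvd_of_pow_eq_one h3
    have h5 : orderOf y ∣ s ^ m := orderOf_dvd_of_pow_eq_one hm
    have hcop : Nat.Coprime (p ^ n) (s ^ m) := Nat.Coprime.pow _ _ ((Nat.coprime_primes hp hs).2 hps)
    exact orderOf_eq_one_iff.1 (Nat.eq_one_of_dvd_coprimes hcop h4 h5)
  -- M ≠ 1
  have h2 : M ≠ ⊥ := by
    intro hbot
    have hinj : Function.Injective (nrm X U) := (MonoidHom.ker_eq_bot_iff _).1 hbot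
    apply hne
    rw [eq_top_iff]
    intro y _
    obtain ⟨z, hz⟩ := (Finite.injective_iff_surjective.1 hinj) y
    rw [← hz]
    exact nrm_mem U z
  -- C
  set C : Subgroup X := M ⊓ Fx X W with hC
  have hMW : ∀ g ∈ W, ∀ y ∈ M, g • y ∈ M := by
    intro g hg y hy
    rw [hM, MonoidHom.mem_ker] at hy ⊢
    rw [nrm_smul (fun a ha => hUW a ha g hg), hy, smul_one]
  have h3 := cong hs hW hMW
  have h4 : s ∣ Nat.card M := by
    obtain ⟨n, hn⟩ := IsPGroup.iff_card.1 (hXp.to_subgroup M)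
    rcases Nat.eq_zero_or_pos n with h0 | h0
    · exfalso
      rw [h0, pow_zero] at hn
      exact h2 (Subgroup.card_eq_one.1 hn)
    · rw [hn]; exact dvd_pow_self s h0.ne'
  have h5 : s ∣ Nat.card C := by
    have := (Nat.modEq_zero_iff_dvd.2 h4).symm.trans h3
    exact Nat.modEq_zero_iff_dvd.1 this.symm
  obtain ⟨j, hj⟩ := IsPGroup.iff_card.1 (hXp.to_subgroup C)
  refine ⟨j, ?_, ?_, ?_⟩
  · rcases Nat.eq_zero_or_pos j with h0 | h0
    · exfalso
      rw [hj, h0, pow_zero] at h5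
      exact hs.one_lt.ne' (Nat.dvd_one.1 h5)
    · exact h0
  · rw [← hj]
    exact Subgroup.card_dvd_of_le inf_le_right
  · have hinv : ∀ g ∈ U, ∀ y ∈ C, g • y ∈ C := by
      rintro g hg y ⟨hy1, hy2⟩
      refine ⟨?_, ?_⟩
      · show nrm X U (g • y) = 1
        have h6 : ∀ x : X, nrm X U (g • x) = nrm X U x := by
          intro x
          classical
          letI := Fintype.ofFinite U
          rw [nrm_apply, nrm_apply]
          refine Fintype.prod_bijective (fun h : U => h * (⟨g, hg⟩ : U)) (Group.mulRight_bijective _) _ _ ?_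
          intro h
          show (h : H) • g • x = ((h * (⟨g, hg⟩ : U) : U) : H) • x
          rw [← mul_smul]; rfl
        rw [h6]; exact hy1
      · intro b hb
        rw [← mul_smul, ← hUW g hg b hb, mul_smul, hy2 b hb]
    have h7 := cong hp hU hinv
    rw [hj] at h7
    have h8 : Nat.card (C ⊓ Fx X U : Subgroup X) = 1 := by
      rw [Subgroup.card_eq_one, eq_bot_iff]
      rintro y ⟨⟨hy1, -⟩, hy2⟩
      rw [← h1]
      exact ⟨hy1, hy2⟩
    rw [h8] at h7
    exact h7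

/-- arithmetic of the case `2^6` -/
theorem arith {p c ν : ℕ} (hp : p.Prime) (hc0 : 0 < c) (hc : c < 6) (h : ν * (2 ^ c - 1) = 2 ^ 6 - 1)
    (hν : ν ≡ 1 [MOD p]) : (p = 2 ∧ c ≤ 3) ∨ (p = 31 ∧ c = 1) ∨ (p = 5 ∧ c = 2) := by
  have hd : ∀ n : ℕ, ν = n + 1 → p ∣ n := by
    intro n hn
    rw [hn] at hν
    have : n ≡ 0 [MOD p] := Nat.ModEq.add_right_cancel' 1 (by simpa using hν)
    exact Nat.modEq_zero_iff_dvd.1 this
  interval_cases c
  · have h1 : p ∣ 2 * 31 := hd 62 (by omega)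
    rcases (Nat.Prime.dvd_mul hp).1 h1 with h | h
    · exact Or.inl ⟨(Nat.prime_dvd_prime_iff_eq hp Nat.prime_two).1 h, by norm_num⟩
    · exact Or.inr (Or.inl ⟨(Nat.prime_dvd_prime_iff_eq hp (by norm_num)).1 h, rfl⟩)
  · have h1 : p ∣ 4 * 5 := hd 20 (by omega)
    rcases (Nat.Prime.dvd_mul hp).1 h1 with h | h
    · have h2 : p ∣ 2 ^ 2 := h
      exact Or.inl ⟨(Nat.prime_dvd_prime_iff_eq hp Nat.prime_two).1 (hp.dvd_of_dvd_pow h2), by norm_num⟩
    · exact Or.inr (Or.inr ⟨(Nat.prime_dvd_prime_iff_eq hp (by norm_num)).1 h, rfl⟩)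
  · have h1 : p ∣ 2 ^ 3 := hd 8 (by omega)
    exact Or.inl ⟨(Nat.prime_dvd_prime_iff_eq hp Nat.prime_two).1 (hp.dvd_of_dvd_pow h1), le_refl _⟩
  · exfalso; omega
  · exfalso; omega

variable [FaithfulSMul H X] {s d : ℕ}

/-- P3 (Zsigmondy exceptions) -/
theorem p3 (hs : s.Prime) (hX : Nat.card X = s ^ d) {p q : ℕ} (hp : p.Prime) (hq : q.Prime) (hpq : p ≠ q)
    (hpd : p ∣ Nat.card H) (hqd : q ∣ Nat.card H)
    (hpart : ∀ x : X, x ≠ 1 → NAS p ⊤ (MulAction.stabilizer H x))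
    (hpart' : ∀ x : X, x ≠ 1 → NAS q ⊤ (MulAction.stabilizer H x)) :
    3 ≤ d ∧ ¬ (s = 2 ∧ d = 6) := by
  haveI : Fact p.Prime := ⟨hp⟩
  haveI : Fact q.Prime := ⟨hq⟩
  obtain ⟨c, hc0, hcd, hall, hcount, -⟩ := p1 hs hX hp hpd hpart
  obtain ⟨c', hc0', hcd', hall', hcount', -⟩ := p1 hs hX hq hqd hpart'
  have hν : Nat.card (Sylow p H) ≡ 1 [MOD p] := card_sylow_modEq_one p H
  have hν' : Nat.card (Sylow q H) ≡ 1 [MOD q] := card_sylow_modEq_one q H
  constructor
  · by_contra hd3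
    have hd2 : d = 2 := by omega
    subst hd2
    have key : ∀ (r k ν : ℕ), r.Prime → 0 < k → k < 2 → ν * (s ^ k - 1) = s ^ 2 - 1 → ν ≡ 1 [MOD r] → r = s := by
      intro r k ν hr hk0 hk2 h1 h2
      have hk : k = 1 := by omega
      subst hk
      have h3 : s ^ 2 - 1 = (s + 1) * (s ^ 1 - 1) := by
        rw [pow_one, ← Nat.sq_sub_sq, one_pow]
      rw [h3] at h1
      have h4 : ν = s + 1 := Nat.eq_of_mul_eq_mul_right (by have := hs.one_lt; rw [pow_one]; omega) h1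
      rw [h4] at h2
      have h5 : s ≡ 0 [MOD r] := Nat.ModEq.add_right_cancel' 1 (by simpa using h2)
      exact (Nat.prime_dvd_prime_iff_eq hr hs).1 (Nat.modEq_zero_iff_dvd.1 h5)
    exact hpq ((key p c _ hp hc0 hcd hcount hν).trans (key q c' _ hq hc0' hcd' hcount' hν').symm)
  · rintro ⟨rfl, rfl⟩
    have ha := arith hp hc0 hcd hcount hν
    have ha' := arith hq hc0' hcd' hcount' hν'
    -- a nontrivial element
    obtain ⟨x0, hx0⟩ : ∃ x : X, x ≠ 1 := by
      haveI : Nontrivial X := Finite.one_lt_card_iff_nontrivial.1 (by rw [hX]; norm_num)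
      exact exists_ne 1
    obtain ⟨U0, hU, hUi, hUA, hAU, -, -⟩ := nas_unique hp (hpart x0 hx0)
    obtain ⟨W0, hW, hWi, hWA, hAW, -, -⟩ := nas_unique hq (hpart' x0 hx0)
    have hcomm : ∀ a ∈ U0, ∀ b ∈ W0, a * b = b * a := by
      intro a ha b hb
      have h1 : a * (b * a⁻¹ * b⁻¹) ∈ U0 :=
        mul_mem ha ((Subgroup.mem_normalizer_iff.1 (hAU (hWA hb)) a⁻¹).1 (inv_mem ha))
      have h2 : a * b * a⁻¹ * b⁻¹ ∈ W0 :=
        mul_mem ((Subgroup.mem_normalizer_iff.1 (hAW (hUA ha)) b).1 hb) (inv_mem hb)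
      have h3 : a * (b * a⁻¹ * b⁻¹) = a * b * a⁻¹ * b⁻¹ := by group
      rw [h3] at h1
      have h4 : a * b * a⁻¹ * b⁻¹ = 1 :=
        Subgroup.disjoint_def.1 (IsPGroup.disjoint_of_ne p q hpq U0 W0 hU hW) h1 h2
      have h5 : a * b * a⁻¹ = b := by rwa [mul_inv_eq_one] at h4
      rwa [mul_inv_eq_iff_eq_mul] at h5
    have hfU : Nat.card (Fx X U0) = 2 ^ c := hall U0 hU hUi
    have hfW : Nat.card (Fx X W0) = 2 ^ c' := hall' W0 hW hWi
    -- one prime is two
    have two : ∀ (r k k' : ℕ) (U W : Subgroup H), r.Prime → IsPGroup r U → IsPGroup 2 W →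
        (∀ a ∈ U, ∀ b ∈ W, a * b = b * a) → Nat.card (Fx X U) = 2 ^ k → k < 6 → Nat.card (Fx X W) = 2 ^ k' →
        k' ≤ 3 → (r = 31 ∨ r = 5) → False := by
      intro r k k' U W hr hU hW hUW hk hk6 hk' hk3 hr5
      have hne : Fx X U ≠ ⊤ := by
        intro htop
        rw [htop, Subgroup.card_top, hX] at hk
        have : 6 = k := Nat.pow_right_injective (le_refl 2) hk
        omega
      obtain ⟨j, hj0, hj1, hj2⟩ := step Nat.prime_two hX hr (by rcases hr5 with rfl | rfl <;> norm_num) hU hW hUW hne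
      rw [hk'] at hj1
      have hj3 : j ≤ 3 := ((Nat.pow_dvd_pow_iff_le_right (by norm_num)).1 hj1).trans hk3
      have hj4 : r ∣ 2 ^ j - 1 := (Nat.modEq_iff_dvd' Nat.one_le_two_pow).1 hj2.symm
      rcases hr5 with rfl | rfl <;> interval_cases j <;> revert hj4 <;> norm_num
    -- both odd
    have odd : ∀ (k k' : ℕ) (U W : Subgroup H), IsPGroup 31 U → (∀ a ∈ U, ∀ b ∈ W, a * b = b * a) →
        Nat.card (Fx X U) = 2 → Nat.card (Fx X W) = 4 → False := by
      intro k k' U W hU hUW hk hk'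
      have hinv : ∀ g ∈ U, ∀ y ∈ Fx X W, g • y ∈ Fx X W := by
        intro g hg y hy b hb
        rw [← mul_smul, ← hUW g hg b hb, mul_smul, hy b hb]
      have h1 := cong (by norm_num : Nat.Prime 31) hU hinv
      have h2 : Nat.card (Fx X W ⊓ Fx X U : Subgroup X) ∣ 2 := by
        rw [← hk]; exact Subgroup.card_dvd_of_le inf_le_right
      rw [hk'] at h1
      rcases (Nat.dvd_prime Nat.prime_two).1 h2 with h3 | h3 <;> rw [h3] at h1 <;> revert h1 <;> decide
    rcases ha with ⟨rfl, h1⟩ | ⟨rfl, rfl⟩ | ⟨rfl, rfl⟩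
    · rcases ha' with ⟨rfl, h1'⟩ | ⟨rfl, rfl⟩ | ⟨rfl, rfl⟩
      · exact hpq rfl
      · exact two 31 1 c W0 U0 hq hW hU (fun a ha b hb => (hcomm b hb a ha).symm) hfW (by norm_num) hfU h1 (Or.inl rfl)
      · exact two 5 2 c W0 U0 hq hW hU (fun a ha b hb => (hcomm b hb a ha).symm) hfW (by norm_num) hfU h1 (Or.inr rfl)
    · rcases ha' with ⟨rfl, h1'⟩ | ⟨rfl, rfl⟩ | ⟨rfl, rfl⟩
      · exact two 31 1 c' U0 W0 hp hU hW hcomm hfU (by norm_num) hfW h1' (Or.inl rfl)
      · exact hpq rfl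
      · exact odd 1 2 U0 W0 hU hcomm (by simpa using hfU) (by simpa using hfW)
    · rcases ha' with ⟨rfl, h1'⟩ | ⟨rfl, rfl⟩ | ⟨rfl, rfl⟩
      · exact two 5 2 c' U0 W0 hp hU hW hcomm hfU (by norm_num) hfW h1' (Or.inr rfl)
      · exact odd 1 2 W0 U0 hW (fun a ha b hb => (hcomm b hb a ha).symm) (by simpa using hfW) (by simpa using hfU)
      · exact hpq rfl

end Cfsg.Agent.Lib.H16PalP3
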