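import Cfsg.Agent.Lib.H16Pal0
import Cfsg.Agent.Lib.PermLemma
import Cfsg.Agent.Lib.CliffordCorr
import Cfsg.Agent.Lib.CoprimeAction
import Cfsg.Agent.Lib.BlockCover2
import Cfsg.Agent.Lib.ConjSylow
import Cfsg.Agent.Lib.LocBase

/-!
# Palfy's theorem, piece P4 (helper49)
-/

set_option autoImplicit false
set_option linter.unusedSectionVars false

namespace Cfsg.Agent.Lib.H16PalP4

open Cfsg Cfsg.Agent.Lib Cfsg.Agent.Lib.CharBasic Cfsg.Agent.Lib.Clifford Cfsg.Agent.Lib.H16Pal0

universe u v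

variable {H : Type u} [Group H] [Finite H]

theorem mem_zpowers_of_coprime {a b : H} (hab : a * b = b * a) (ho : (orderOf a).Coprime (orderOf b)) :
    ∃ k : ℕ, (a * b) ^ k = a := by
  obtain ⟨k, hk1, hk2⟩ := Nat.chineseRemainder ho 1 0
  refine ⟨k, ?_⟩
  have hc : Commute a b := hab
  rw [hc.mul_pow]
  have h1 : a ^ k = a := by
    conv_rhs => rw [← pow_one a]
    rw [pow_eq_pow_iff_modEq]
    exact hk1
  have h2 : b ^ k = 1 := by
    rw [← pow_zero b, pow_eq_pow_iff_modEq]
    exact hk2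
  rw [h1, h2, mul_one]

variable {R : Subgroup H} [hR : R.Normal]

/-- the permutation of the classes of `R` induced by an element of `H` -/
noncomputable def cm (R : Subgroup H) [R.Normal] (g : H) (C : ConjClasses R) : ConjClasses R :=
  ConjClasses.map (MulAut.conjNormal g : R ≃* R).toMonoidHom C

theorem cm_mk (g : H) (y : R) : cm R g (ConjClasses.mk y) = ConjClasses.mk ⟨g * y * g⁻¹, hR.conj_mem (y : H) y.2 g⟩ := by
  rfl

theorem cm_mul (g h : H) (C : ConjClasses R) : cm R (g * h) C = cm R g (cm R h C) := by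
  obtain ⟨y, rfl⟩ := ConjClasses.mk_surjective C
  rw [cm_mk, cm_mk, cm_mk]
  congr 1
  apply Subtype.ext
  simp only
  group

theorem cm_one (C : ConjClasses R) : cm R 1 C = C := by
  obtain ⟨y, rfl⟩ := ConjClasses.mk_surjective C
  rw [cm_mk]
  congr 1
  apply Subtype.ext
  simp

theorem cm_pow {g : H} {C : ConjClasses R} (h : cm R g C = C) (k : ℕ) : cm R (g ^ k) C = C := by
  induction k with
  | zero => rw [pow_zero, cm_one]
  | succ k ih => rw [pow_succ, cm_mul, h, ih]

theorem card_fix (g : H) : Nat.card {C : ConjClasses R // cm R g C = C} =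
    Nat.card {χ : IrrCharacter R // cj R g (χ : R → ℂ) = χ} := by
  have h := PermLemma.perm_lemma_automorphism (MulAut.conjNormal g : R ≃* R)
  exact h

/-- two commuting elements of coprime orders: if some class of `R` is fixed by neither, some irreducible character is -/
theorem exists_irr_not_fixed {a b : H} (hab : a * b = b * a) (ho : (orderOf a).Coprime (orderOf b)) {C : ConjClasses R}
    (ha : cm R a C ≠ C) (hb : cm R b C ≠ C) :
    ∃ θ : IrrCharacter R, cj R a (θ : R → ℂ) ≠ θ ∧ cj R b (θ : R → ℂ) ≠ θ := by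
  classical
  by_contra hcon
  push Not at hcon
  obtain ⟨k, hk⟩ := mem_zpowers_of_coprime hab ho
  obtain ⟨l, hl⟩ := mem_zpowers_of_coprime (a := b) (b := a) hab.symm ho.symm
  rw [← hab] at hl
  let A : Set (IrrCharacter R) := {χ | cj R a (χ : R → ℂ) = χ}
  let B : Set (IrrCharacter R) := {χ | cj R b (χ : R → ℂ) = χ}
  let A' : Set (ConjClasses R) := {C | cm R a C = C}
  let B' : Set (ConjClasses R) := {C | cm R b C = C}
  have hcardA : A.ncard = A'.ncard := (card_fix a).symm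
  have hcardB : B.ncard = B'.ncard := (card_fix b).symm
  have hAB : A ∩ B = {χ : IrrCharacter R | cj R (a * b) (χ : R → ℂ) = χ} := by
    ext χ
    constructor
    · rintro ⟨h1, h2⟩
      exact mul_mem (show a ∈ inertia R (χ : R → ℂ) from h1) (show b ∈ inertia R (χ : R → ℂ) from h2)
    · intro h
      have h' : a * b ∈ inertia R (χ : R → ℂ) := h
      refine ⟨?_, ?_⟩
      · have := pow_mem h' k
        rw [hk] at this
        exact this
      · have := pow_mem h' l
        rw [hl] at this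
        exact this
  have hAB' : A' ∩ B' = {C : ConjClasses R | cm R (a * b) C = C} := by
    ext D
    constructor
    · rintro ⟨h1, h2⟩
      change cm R (a * b) D = D
      rw [cm_mul, show cm R b D = D from h2, show cm R a D = D from h1]
    · intro h
      refine ⟨?_, ?_⟩
      · have := cm_pow h k
        rw [hk] at this
        exact this
      · have := cm_pow h l
        rw [hl] at this
        exact this
  have hcardI : (A ∩ B).ncard = (A' ∩ B').ncard := by
    rw [hAB, hAB']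
    exact (card_fix (a * b)).symm
  have htot : Nat.card (IrrCharacter R) = Nat.card (ConjClasses R) := by
    have h := card_fix (R := R) (1 : H)
    have e1 : Nat.card {C : ConjClasses R // cm R 1 C = C} = Nat.card (ConjClasses R) :=
      Nat.card_congr (Equiv.subtypeUnivEquiv (fun C => cm_one C))
    have e2 : Nat.card {χ : IrrCharacter R // cj R 1 (χ : R → ℂ) = χ} = Nat.card (IrrCharacter R) :=
      Nat.card_congr (Equiv.subtypeUnivEquiv (fun χ => cj_one (χ : R → ℂ)))
    rw [e1, e2] at h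
    exact h.symm
  have hun : A ∪ B = Set.univ := by
    ext χ
    simp only [Set.mem_union, Set.mem_univ, iff_true]
    by_cases h : cj R a (χ : R → ℂ) = χ
    · exact Or.inl h
    · exact Or.inr (hcon χ h)
  have h1 := Set.ncard_union_add_ncard_inter A B (Set.toFinite _) (Set.toFinite _)
  have h2 := Set.ncard_union_add_ncard_inter A' B' (Set.toFinite _) (Set.toFinite _)
  have h3 : (A ∪ B).ncard = Nat.card (ConjClasses R) := by rw [hun, Set.ncard_univ, htot]
  have h4 : (A' ∪ B').ncard = (Set.univ : Set (ConjClasses R)).ncard := by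
    rw [Set.ncard_univ]
    omega
  have h5 : A' ∪ B' = Set.univ := Set.eq_of_subset_of_ncard_le (Set.subset_univ _) h4.symm.le (Set.toFinite _)
  have h6 : C ∈ A' ∪ B' := by rw [h5]; exact Set.mem_univ _
  rcases h6 with h6 | h6
  · exact ha h6
  · exact hb h6

/-- `H` acting on itself by conjugation -/
def CX (H : Type u) [Group H] : Type u := H

instance instCX {K : Type u} [Group K] : MulAction K (CX K) where
  smul g x := (g * (show K from x) * g⁻¹ : K)
  one_smul x := (fun y => by rw [one_mul, inv_one, mul_one] : ∀ y : K, 1 * y * 1⁻¹ = y) x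
  mul_smul g h x := (fun y => by group : ∀ y : K, g * h * y * (g * h)⁻¹ = g * (h * y * h⁻¹) * g⁻¹) x

/-- Glauberman's lemma for a class: if the class of `y` in `R` is fixed by `a`, `orderOf a` prime to `|R|`, then some
conjugate of `y` commutes with `a`. -/
theorem exists_commute {a : H} (ha : (orderOf a).Coprime (Nat.card R)) {y : R} (hy : cm R a (ConjClasses.mk y) = ConjClasses.mk y) :
    ∃ k ∈ R, a * (k * (y : H) * k⁻¹) = (k * (y : H) * k⁻¹) * a := by
  have hsm : ∀ g x : H, g • (show CX H from x) = (g * x * g⁻¹ : H) := fun g x => rfl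
  have h1 : ∀ x ∈ Subgroup.zpowers a, ∃ k ∈ R, x • (show CX H from (y : H)) = k • (show CX H from (y : H)) := by
    intro x hx
    have hx2 : x ∈ Submonoid.powers a := by
      rw [← mem_powers_iff_mem_zpowers] at hx
      exact hx
    obtain ⟨n, rfl⟩ := hx2
    have h2 := cm_pow hy n
    rw [cm_mk, ConjClasses.mk_eq_mk_iff_isConj, isConj_iff] at h2
    obtain ⟨c, hc⟩ := h2
    refine ⟨(c : H)⁻¹, inv_mem c.2, ?_⟩
    have h4 := congrArg (Subtype.val) hc
    simp only [Subgroup.coe_mul, Subgroup.coe_inv] at h4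
    change a ^ n * (y : H) * (a ^ n)⁻¹ = (c : H)⁻¹ * (y : H) * (c : H)⁻¹⁻¹
    conv_rhs => rw [← h4]
    simp only [mul_assoc, inv_mul_cancel_left, inv_inv, inv_mul_cancel, mul_one]
  have hn : Subgroup.zpowers a ≤ Subgroup.normalizer (R : Set H) := by
    rw [Subgroup.normalizer_eq_top_iff.mpr hR]; exact le_top
  obtain ⟨k, hk, hfix⟩ := CoprimeAction.exists_fixed_point (X := CX H) hn (by rw [Nat.card_zpowers]; exact ha)
    (Or.inl inferInstance) (show CX H from (y : H)) h1
  refine ⟨k, hk, ?_⟩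
  have h2 : a * (k * (y : H) * k⁻¹) * a⁻¹ = k * (y : H) * k⁻¹ := hfix a (Subgroup.mem_zpowers a)
  rw [mul_inv_eq_iff_eq_mul] at h2
  exact h2

section syl

open Subgroup LocBase

variable {p : ℕ} [hp : Fact p.Prime] {U : Subgroup H}

theorem sup_norm (hU : IsPGroup p U) (hUi : ¬ p ∣ U.index) (hRU : (R ⊔ U).Normal) :
    R ⊔ normalizer (U : Set H) = ⊤ := by
  have h1 : IsSyl p U ⊤ := ⟨le_top, hU, by rwa [relIndex_top_right]⟩
  have h2 : IsSyl p U (R ⊔ U) := h1.of_le le_sup_right le_top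
  have h3 := h2.frattini_sup (H := ⊤) le_top (by rw [normalizer_eq_top_iff.mpr hRU])
  rw [top_inf_eq] at h3
  rw [eq_top_iff, ← h3]
  refine sup_le (sup_le le_sup_left ?_) le_sup_right
  exact le_normalizer.trans le_sup_right

theorem card_sylow_dvd (hU : IsPGroup p U) (hUi : ¬ p ∣ U.index) (hRU : (R ⊔ U).Normal) :
    Nat.card (Sylow p H) ∣ Nat.card R := by
  have h1 := Sylow.card_eq_index_normalizer (hU.toSylow hUi)
  rw [h1]
  change (normalizer (U : Set H)).index ∣ _
  have h3 := sup_norm (R := R) hU hUi hRU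
  have hn : normalizer (U : Set H) ≤ normalizer (R : Set H) := by
    rw [normalizer_eq_top_iff.mpr hR]; exact le_top
  have h4 := ConjSylow.card_sup_mul_card_inf hn
  rw [sup_comm, h3, card_top, ← (normalizer (U : Set H)).card_mul_index, mul_assoc] at h4
  have h5 := Nat.eq_of_mul_eq_mul_left Nat.card_pos h4
  exact ⟨_, h5.symm⟩

/-- a subgroup containing `R` of index prime to `p` contains `U` -/
theorem le_of_index (hU : IsPGroup p U) (hUi : ¬ p ∣ U.index) (hRU : (R ⊔ U).Normal) {I : Subgroup H} (hRI : R ≤ I)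
    (hI : ¬ p ∣ I.index) : U ≤ I := by
  obtain ⟨S, hS⟩ := exists_isSyl p I
  have h1 : IsSyl p S ⊤ := by
    refine ⟨le_top, hS.pgroup, ?_⟩
    rw [relIndex_top_right, ← relIndex_mul_index hS.le]
    intro hd
    rcases (Nat.Prime.dvd_mul hp.out).mp hd with hd | hd
    · exact hS.ndvd hd
    · exact hI hd
  have h2 : IsSyl p U ⊤ := ⟨le_top, hU, by rwa [relIndex_top_right]⟩
  obtain ⟨h, -, he⟩ := h2.conj h1
  have hn : normalizer (U : Set H) ≤ normalizer (R : Set H) := by
    rw [normalizer_eq_top_iff.mpr hR]; exact le_top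
  obtain ⟨n, hn', k, hk, hh⟩ := exists_mul_of_mem_sup_of_le' hn (x := h) (by
    rw [sup_norm (R := R) hU hUi hRU]; exact mem_top h)
  intro u hu
  have h3 : n * u * n⁻¹ ∈ U := (mem_normalizer_iff.mp hn' u).mp hu
  rw [← he, mem_map_conj, hh] at h3
  have e1 : (n * k)⁻¹ * (n * u * n⁻¹) * (n * k) = k⁻¹ * u * k := by group
  rw [e1] at h3
  have h4 : k * (k⁻¹ * u * k) * k⁻¹ ∈ I := mul_mem (mul_mem (hRI hk) (hS.le h3)) (inv_mem (hRI hk))
  have e2 : k * (k⁻¹ * u * k) * k⁻¹ = u := by group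
  rwa [e2] at h4

end syl

section act

variable {X : Type v} [CommGroup X] [Finite X] [MulDistribMulAction H X] [FaithfulSMul H X] {s d : ℕ}

/-- fixed points of an element -/
def Fx (X : Type v) [CommGroup X] [MulDistribMulAction H X] (g : H) : Subgroup X where
  carrier := {x | g • x = x}
  one_mem' := smul_one g
  mul_mem' {a b} ha hb := by
    change g • (a * b) = a * b
    rw [smul_mul', show g • a = a from ha, show g • b = b from hb]
  inv_mem' {a} ha := by
    change g • a⁻¹ = a⁻¹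
    rw [smul_inv', show g • a = a from ha]

theorem mem_Fx {g : H} {x : X} : x ∈ Fx X g ↔ g • x = x := Iff.rfl

theorem Fx_card (hs : s.Prime) (hX : Nat.card X = s ^ d) {g : H} (hg : g ≠ 1) : ∃ j < d, Nat.card (Fx X g) = s ^ j := by
  have h1 : Nat.card (Fx X g) ∣ s ^ d := by rw [← hX]; exact Subgroup.card_subgroup_dvd_card _
  obtain ⟨j, hj, hj2⟩ := (Nat.dvd_prime_pow hs).mp h1
  refine ⟨j, lt_of_le_of_ne hj ?_, hj2⟩
  rintro rfl
  apply hg
  have h2 : Fx X g = ⊤ := Subgroup.eq_top_of_card_eq _ (by rw [hj2, hX])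
  apply FaithfulSMul.eq_of_smul_eq_smul (α := X)
  intro x
  rw [one_smul]
  have : x ∈ Fx X g := by rw [h2]; exact Subgroup.mem_top x
  exact this

theorem mod_aux {r j : ℕ} (hs : s.Prime) (hr1 : r ∣ s ^ d - 1) (h : s ^ d ≡ s ^ j [MOD r]) : r ∣ s ^ j - 1 := by
  have h1 : 1 ≡ s ^ d [MOD r] := (Nat.modEq_iff_dvd' (Nat.one_le_pow _ _ hs.pos)).mpr hr1
  exact (Nat.modEq_iff_dvd' (Nat.one_le_pow _ _ hs.pos)).mp (h1.trans h)

theorem isPGroup_zp {r : ℕ} {y : H} (hy : orderOf y = r) : IsPGroup r (Subgroup.zpowers y) :=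
  IsPGroup.of_card (n := 1) (by rw [Nat.card_zpowers, hy, pow_one])

theorem Fx_bot (hs : s.Prime) (hX : Nat.card X = s ^ d) {r : ℕ} (hr : r.Prime) (hr1 : r ∣ s ^ d - 1)
    (hr2 : ∀ k : ℕ, 0 < k → k < d → ¬ r ∣ s ^ k - 1) {y : H} (hy : orderOf y = r) : Fx X y = ⊥ := by
  have : Fact r.Prime := ⟨hr⟩
  have hy1 : y ≠ 1 := by
    rintro rfl
    rw [orderOf_one] at hy
    exact hr.one_lt.ne hy
  obtain ⟨j, hj, hcard⟩ := Fx_card hs hX hy1
  have h1 := (isPGroup_zp hy).card_modEq_card_fixedPoints X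
  have h2 : (MulAction.fixedPoints (Subgroup.zpowers y) X : Set X) = (Fx X y : Set X) := by
    ext x
    constructor
    · intro h
      exact h ⟨y, Subgroup.mem_zpowers y⟩
    · intro h g
      have h3 : Subgroup.zpowers y ≤ MulAction.stabilizer H x := by
        rw [Subgroup.zpowers_le]; exact h
      exact h3 g.2
  have h3 : Nat.card (MulAction.fixedPoints (Subgroup.zpowers y) X) = s ^ j := by
    rw [← hcard]
    exact Nat.card_congr (Equiv.setCongr h2)
  rw [h3, hX] at h1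
  have h4 := mod_aux hs hr1 h1
  have hj0 : j = 0 := by
    by_contra hj0
    exact hr2 j (Nat.pos_of_ne_zero hj0) hj h4
  rw [hj0, pow_zero] at hcard
  exact Subgroup.card_eq_one.mp hcard

/-- an element fixing a nontrivial point commutes with no element of order `r` -/
theorem no_comm (hs : s.Prime) (hX : Nat.card X = s ^ d) {r : ℕ} (hr : r.Prime) (hr1 : r ∣ s ^ d - 1)
    (hr2 : ∀ k : ℕ, 0 < k → k < d → ¬ r ∣ s ^ k - 1) {y : H} (hy : orderOf y = r) {b : H} (hb : b ≠ 1)
    (hby : b * y = y * b) {x : X} (hx : x ≠ 1) (hbx : b • x = x) : False := by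
  have : Fact r.Prime := ⟨hr⟩
  obtain ⟨k, hk, hcard⟩ := Fx_card hs hX hb
  have hbot := Fx_bot hs hX hr hr1 hr2 hy
  have hcomm : ∀ g ∈ Subgroup.zpowers y, b * g = g * b := by
    intro g hg
    obtain ⟨n, rfl⟩ := hg
    exact (show Commute b y from hby).zpow_right n
  let act : MulAction (Subgroup.zpowers y) (Fx X b) :=
    { smul := fun g x => ⟨(g : H) • (x : X), by
        change b • ((g : H) • (x : X)) = (g : H) • (x : X)
        rw [smul_smul, hcomm g g.2, ← smul_smul, show b • (x : X) = x from x.2]⟩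
      one_smul := fun x => Subtype.ext (one_smul H (x : X))
      mul_smul := fun g h x => Subtype.ext (mul_smul (g : H) (h : H) (x : X)) }
  have h1 := (isPGroup_zp hy).card_modEq_card_fixedPoints (Fx X b)
  have h2 : Nat.card (MulAction.fixedPoints (Subgroup.zpowers y) (Fx X b)) = 1 := by
    rw [Nat.card_eq_one_iff_unique]
    refine ⟨⟨fun u v => ?_⟩, ⟨⟨1, fun g => Subtype.ext (smul_one (g : H))⟩⟩⟩
    have h4 : ∀ w : MulAction.fixedPoints (Subgroup.zpowers y) (Fx X b), ((w : Fx X b) : X) = 1 := by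
      intro w
      have h5 := w.2 ⟨y, Subgroup.mem_zpowers y⟩
      have h6 : ((w : Fx X b) : X) ∈ Fx X y := congrArg Subtype.val h5
      rw [hbot, Subgroup.mem_bot] at h6
      exact h6
    exact Subtype.ext (Subtype.ext ((h4 u).trans (h4 v).symm))
  rw [h2, hcard] at h1
  have h3 : r ∣ s ^ k - 1 := (Nat.modEq_iff_dvd' (Nat.one_le_pow _ _ hs.pos)).mp h1.symm
  have hk0 : k ≠ 0 := by
    rintro rfl
    rw [pow_zero] at hcard
    have h4 := Subgroup.card_eq_one.mp hcard
    have h5 : x ∈ Fx X b := hbx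
    rw [h4, Subgroup.mem_bot] at h5
    exact hx h5
  exact hr2 k (Nat.pos_of_ne_zero hk0) hk h3

end act

section main

open Subgroup

variable {X : Type v} [CommGroup X] [Finite X] [MulDistribMulAction H X] [FaithfulSMul H X] {s d : ℕ}

/-- if `a ∈ U` does not fix `θ` then `p` divides the degrees over `θ` -/
theorem dvd_deg {p : ℕ} (hp : p.Prime) {U : Subgroup H} (hU : IsPGroup p U) (hUi : ¬ p ∣ U.index) (hRU : (R ⊔ U).Normal)
    [Fintype R] {a : H} (ha : a ∈ U) (θ : IrrCharacter R) (haθ : cj R a (θ : R → ℂ) ≠ θ) (χ : IrrCharacter H)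
    (hχ : classInner (fun x : R => (χ : H → ℂ) x) (θ : R → ℂ) ≠ 0) : p ∣ charDegree (χ : H → ℂ) := by
  have : Fact p.Prime := ⟨hp⟩
  by_contra hnd
  have h1 := CrossDeg.inertia_index_dvd R χ.2 θ.2 hχ
  have h2 : ¬ p ∣ (inertia R (θ : R → ℂ)).index := fun h => hnd (h.trans h1)
  have h3 := le_of_index hU hUi hRU (le_inertia θ.2.isClassFunction) h2
  exact haθ (h3 ha)

theorem exists_elt {p : ℕ} (hp : p.Prime) (hpd : p ∣ Nat.card H) {U : Subgroup H} (hUi : ¬ p ∣ U.index) :
    ∃ a ∈ U, orderOf a = p := by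
  have : Fact p.Prime := ⟨hp⟩
  have h1 : p ∣ Nat.card U := by
    rw [← U.card_mul_index] at hpd
    rcases (Nat.Prime.dvd_mul hp).mp hpd with h | h
    · exact h
    · exact absurd h hUi
  obtain ⟨a, ha⟩ := exists_prime_orderOf_dvd_card' (G := U) p h1
  exact ⟨a, a.2, by rw [orderOf_coe]; exact ha⟩

theorem p4_of (hs : s.Prime) (hX : Nat.card X = s ^ d) {p q : ℕ} (hp : p.Prime) (hq : q.Prime)
    (hpq : p ≠ q) (hpd : p ∣ Nat.card H) (hqd : q ∣ Nat.card H)
    (hpart : ∀ x : X, x ≠ 1 → NAS p ⊤ (MulAction.stabilizer H x))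
    (hpart' : ∀ x : X, x ≠ 1 → NAS q ⊤ (MulAction.stabilizer H x)) {r : ℕ} (hr : r.Prime) (hr1 : r ∣ s ^ d - 1)
    (hr2 : ∀ k : ℕ, 0 < k → k < d → ¬ r ∣ s ^ k - 1)
    (P1 : ∃ c, 0 < c ∧ c < d ∧ Nat.card (Sylow p H) * (s ^ c - 1) = s ^ d - 1)
    (P2 : ∀ U W : Subgroup H, IsPGroup p U → ¬ p ∣ U.index → IsPGroup q W → ¬ q ∣ W.index →
      (∀ a ∈ U, ∀ b ∈ U, a * b = b * a) → (∀ a ∈ W, ∀ b ∈ W, a * b = b * a) → (∀ a ∈ U, ∀ b ∈ W, a * b = b * a) →
      ∃ R : Subgroup H, R.Normal ∧ ¬ p ∣ Nat.card R ∧ ¬ q ∣ Nat.card R ∧ (R ⊔ U).Normal ∧ (R ⊔ W).Normal) :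
    ∃ χ : IrrCharacter H, p * q ∣ charDegree (χ : H → ℂ) := by
  have fp : Fact p.Prime := ⟨hp⟩
  have fq : Fact q.Prime := ⟨hq⟩
  have fr : Fact r.Prime := ⟨hr⟩
  obtain ⟨c, hc0, hcd, hc⟩ := P1
  -- a nontrivial point
  obtain ⟨x, hx⟩ : ∃ x : X, x ≠ 1 := by
    have h1 : 1 < Nat.card X := by
      rw [hX]
      exact Nat.one_lt_pow (by omega) hs.one_lt
    have := Finite.one_lt_card_iff_nontrivial.mp h1
    exact exists_ne 1
  obtain ⟨U, hUx, hUn, hU, hUi, hUa⟩ := hpart x hx
  obtain ⟨W, hWx, hWn, hW, hWi, hWa⟩ := hpart' x hx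
  rw [relIndex_top_right] at hUi hWi
  have hUW : ∀ a ∈ U, ∀ b ∈ W, a * b = b * a := by
    intro a ha b hb
    have h1 : a * b * a⁻¹ * b⁻¹ ∈ U := by
      have e1 : a * b * a⁻¹ * b⁻¹ = a * (b * a⁻¹ * b⁻¹) := by group
      rw [e1]
      exact mul_mem ha ((mem_normalizer_iff.mp (hUn (hWx hb)) _).mp (inv_mem ha))
    have h2 : a * b * a⁻¹ * b⁻¹ ∈ W :=
      mul_mem ((mem_normalizer_iff.mp (hWn (hUx ha)) _).mp hb) (inv_mem hb)
    have h3 : a * b * a⁻¹ * b⁻¹ = 1 := by
      have h4 : Disjoint U W := hU.disjoint_of_ne p q hpq _ _ hW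
      exact Subgroup.mem_bot.mp (h4.le_bot ⟨h1, h2⟩)
    rw [mul_inv_eq_one, mul_inv_eq_iff_eq_mul] at h3
    exact h3
  obtain ⟨R, hRn, hRp, hRq, hRU, hRW⟩ := P2 U W hU hUi hW hWi hUa hWa hUW
  have := Fintype.ofFinite R
  have := Fintype.ofFinite H
  -- an element of order `r` in `R`
  have hrR : r ∣ Nat.card R := by
    refine dvd_trans ?_ (card_sylow_dvd (R := R) hU hUi hRU)
    rw [← hc] at hr1
    rcases (Nat.Prime.dvd_mul hr).mp hr1 with h | h
    · exact h
    · exact absurd h (hr2 c hc0 hcd)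
  obtain ⟨y, hy⟩ := exists_prime_orderOf_dvd_card' (G := R) r hrR
  obtain ⟨a, haU, hao⟩ := exists_elt hp hpd hUi
  obtain ⟨b, hbW, hbo⟩ := exists_elt hq hqd hWi
  have key : ∀ g : H, g ≠ 1 → g • x = x → (orderOf g).Coprime (Nat.card R) →
      cm R g (ConjClasses.mk y) ≠ ConjClasses.mk y := by
    intro g hg hgx hco hcon
    obtain ⟨k, hk, hcomm⟩ := exists_commute hco hcon
    refine no_comm hs hX hr hr1 hr2 (y := k * (y : H) * k⁻¹) ?_ hg hcomm hx hgx
    have h1 : orderOf (MulAut.conj k (y : H)) = orderOf (y : H) := MulEquiv.orderOf_eq _ _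
    rw [MulAut.conj_apply] at h1
    rw [h1, orderOf_coe]
    exact hy
  have ha1 : a ≠ 1 := by
    rintro rfl
    rw [orderOf_one] at hao
    exact hp.one_lt.ne hao
  have hb1 : b ≠ 1 := by
    rintro rfl
    rw [orderOf_one] at hbo
    exact hq.one_lt.ne hbo
  obtain ⟨θ, hθa, hθb⟩ := exists_irr_not_fixed (R := R) (hUW a haU b hbW)
    (by rw [hao, hbo]; exact (Nat.coprime_primes hp hq).mpr hpq)
    (key a ha1 (hUx haU) (by rw [hao]; exact (Nat.Prime.coprime_iff_not_dvd hp).mpr hRp))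
    (key b hb1 (hWx hbW) (by rw [hbo]; exact (Nat.Prime.coprime_iff_not_dvd hq).mpr hRq))
  obtain ⟨χ, hχ⟩ := BlockCover.exists_above (N := R) θ
  refine ⟨χ, ?_⟩
  exact Nat.Coprime.mul_dvd_of_dvd_of_dvd ((Nat.coprime_primes hp hq).mpr hpq)
    (dvd_deg hp hU hUi hRU haU θ hθa χ hχ) (dvd_deg hq hW hWi hRW hbW θ hθb χ hχ)

end main

end Cfsg.Agent.Lib.H16PalP4
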