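import Cfsg.Agent.S4493
import Cfsg.Agent.Lib.CanonExt
import Cfsg.Agent.Lib.LocBase
import Cfsg.Agent.Lib.H32Cores
import Cfsg.Agent.Lib.ExtDeg
import Cfsg.Agent.Lib.H16Pal0

set_option autoImplicit false

/-!
# The Gallagher piece of Palfy's three primes theorem (S4847, piece P5; helper17)

`N ⊲ G`, `θ ∈ Irr N` extends to its inertia group `T`.  If no irreducible character of `G` over `θ`
has degree divisible by `u`, then `u ∤ |G : T|` and no character degree of `T/N` is divisible by `u`;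
so for solvable `G` and a complement `L` of `N`, the stabilizer `L ⊓ T` has a normal abelian
Sylow `u`-subgroup, which is a Sylow `u`-subgroup of `L`.
-/

namespace Cfsg.Agent.Lib.H16PalP5

open scoped ComplexConjugate
open Cfsg Cfsg.Agent.Lib.CharBasic Cfsg.Agent.Lib.Clifford Cfsg.Agent.Lib.CliffordCorr
open Cfsg.Agent.Lib.LocBase

universe v

variable {G : Type v} [Group G]

/-- The degrees over `θ`, when `θ` extends to its inertia group. -/
theorem degrees_over [Finite G] {N T : Subgroup G} [N.Normal] [Fintype N] (hNT : N ≤ T)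
    {θ : N → ℂ} (hθ : IsIrrCharacter N θ) (hT : ∀ g : G, g ∈ T ↔ cj N g θ = θ)
    {η : T → ℂ} (hη : IsIrrCharacter T η) (hext : ∀ n : N, η ⟨n, hNT n.2⟩ = θ n)
    {β : T ⧸ N.subgroupOf T → ℂ} (hβ : IsIrrCharacter _ β) :
    ∃ χ : G → ℂ, IsIrrCharacter G χ ∧ classInner (fun n : N => χ n) θ ≠ 0 ∧
      χ 1 = (T.index : ℂ) * (β 1 * θ 1) := by
  classical
  have := Fintype.ofFinite G
  have := Fintype.ofFinite T
  have := Fintype.ofFinite (N.subgroupOf T)
  let β' : T → ℂ := fun t => β (QuotientGroup.mk' (N.subgroupOf T) t)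
  have hβi : IsIrrCharacter T β' := hβ.inflate (N.subgroupOf T)
  have hβ1 : β' 1 = β 1 := by
    change β (QuotientGroup.mk' (N.subgroupOf T) 1) = β 1
    rw [map_one]
  have hβc : ∀ m : N.subgroupOf T, β' m = β' 1 := by
    intro m
    change β (QuotientGroup.mk' (N.subgroupOf T) m) = β (QuotientGroup.mk' (N.subgroupOf T) 1)
    rw [map_one]
    congr 1
    exact (QuotientGroup.eq_one_iff _).mpr m.2
  -- θ on M
  have hθM : IsIrrCharacter (N.subgroupOf T) (fun x => θ (subEquiv N T hNT x)) :=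
    (isIrrCharacter_comp_mulEquiv_iff (subEquiv N T hNT)).mpr hθ
  have hprod : IsIrrCharacter T (β' * η) := by
    have h1 := (CanonExt.bijOn (N := N.subgroupOf T) hθM hη (fun m => hext (subEquiv N T hNT m))).mapsTo
      ⟨hβi, hβc⟩
    exact h1.1
  have hres : resTo N T hNT (β' * η) = β' 1 • θ := by
    funext n
    simp only [resTo, Pi.mul_apply, Pi.smul_apply, smul_eq_mul]
    rw [hext n]
    congr 1
    exact hβc ⟨⟨n, hNT n.2⟩, by rw [Subgroup.mem_subgroupOf]; exact n.2⟩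
  have hne : classInner (resTo N T hNT (β' * η)) θ ≠ 0 := by
    rw [hres, classInner_smul_left, hθ.classInner_self, mul_one]
    exact hβi.one_ne_zero
  obtain ⟨h1, h2⟩ := corr_irr hNT hθ hT hprod hne
  refine ⟨indFun T (β' * η), h1, ?_, ?_⟩
  · rw [h2]; exact hne
  · rw [IndFun.indFun_one, Pi.mul_apply]
    have h3 := hext 1
    have h4 : (⟨((1 : N) : G), hNT (1 : N).2⟩ : T) = 1 := rfl
    rw [h4] at h3
    rw [h3, hβ1]

theorem not_dvd_of_degrees [Finite G] {N T : Subgroup G} [N.Normal] [Fintype N] (hNT : N ≤ T)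
    {θ : N → ℂ} (hθ : IsIrrCharacter N θ) (hT : ∀ g : G, g ∈ T ↔ cj N g θ = θ)
    {η : T → ℂ} (hη : IsIrrCharacter T η) (hext : ∀ n : N, η ⟨n, hNT n.2⟩ = θ n) {u : ℕ}
    (hdeg : ∀ χ : IrrCharacter G, classInner (fun n : N => (χ : G → ℂ) n) θ ≠ 0 →
      ¬ u ∣ charDegree (χ : G → ℂ)) :
    ¬ u ∣ T.index ∧ ∀ β : IrrCharacter (T ⧸ N.subgroupOf T),
      ¬ u ∣ charDegree (β : T ⧸ N.subgroupOf T → ℂ) := by
  have key : ∀ β : IrrCharacter (T ⧸ N.subgroupOf T), ∃ χ : IrrCharacter G,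
      classInner (fun n : N => (χ : G → ℂ) n) θ ≠ 0 ∧
      T.index ∣ charDegree (χ : G → ℂ) ∧
      charDegree (β : T ⧸ N.subgroupOf T → ℂ) ∣ charDegree (χ : G → ℂ) := by
    intro β
    obtain ⟨χ, h1, h2, h3⟩ := degrees_over hNT hθ hT hη hext β.2
    have h4 := BlockDeg.charDegree_cast_irr ⟨χ, h1⟩
    have h5 := BlockDeg.charDegree_cast_irr β
    have h6 := BlockDeg.charDegree_cast_irr ⟨θ, hθ⟩
    have h7 : charDegree χ = T.index * (charDegree (β : T ⧸ N.subgroupOf T → ℂ) * charDegree θ) := by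
      have h8 : ((charDegree χ : ℕ) : ℂ) =
          ((T.index * (charDegree (β : T ⧸ N.subgroupOf T → ℂ) * charDegree θ) : ℕ) : ℂ) := by
        push_cast
        rw [h4, h5, h6]
        exact h3
      exact_mod_cast h8
    refine ⟨⟨χ, h1⟩, h2, ?_, ?_⟩
    · change T.index ∣ charDegree χ
      rw [h7]; exact dvd_mul_right _ _
    · change _ ∣ charDegree χ
      rw [h7]; exact (dvd_mul_right _ _).mul_left _
  refine ⟨?_, ?_⟩
  · intro hd
    obtain ⟨χ, h1, h2, -⟩ := key ⟨1, isIrrCharacter_one⟩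
    exact hdeg χ h1 (hd.trans h2)
  · intro β hd
    obtain ⟨χ, h1, -, h2⟩ := key β
    exact hdeg χ h1 (hd.trans h2)

/-- **P5**, general form. -/
theorem exists_syl_of_ext [Finite G] (hs : Group.IsSolvable G) {N L T : Subgroup G} [N.Normal]
    [Fintype N] (hNL : N ⊓ L = ⊥) (hsup : N ⊔ L = ⊤) (hNT : N ≤ T)
    {θ : N → ℂ} (hθ : IsIrrCharacter N θ) (hT : ∀ g : G, g ∈ T ↔ cj N g θ = θ)
    {η : T → ℂ} (hη : IsIrrCharacter T η) (hext : ∀ n : N, η ⟨n, hNT n.2⟩ = θ n) {u : ℕ}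
    (hu : u.Prime)
    (hdeg : ∀ χ : IrrCharacter G, classInner (fun n : N => (χ : G → ℂ) n) θ ≠ 0 →
      ¬ u ∣ charDegree (χ : G → ℂ)) :
    ∃ U : Subgroup G, IsSyl u U L ∧ U ≤ T ∧ L ⊓ T ≤ Subgroup.normalizer (U : Set G) ∧
      ∀ x ∈ U, ∀ y ∈ U, x * y = y * x := by
  obtain ⟨h1, h2⟩ := not_dvd_of_degrees hNT hθ hT hη hext hdeg
  have hsT : Group.IsSolvable (T ⧸ N.subgroupOf T) := inferInstance
  obtain ⟨P, hPn, hPc, hPp, hPi⟩ := (S4493.result hsT u hu).mpr h2
  -- the isomorphism L ⊓ T → T / N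
  set D : Subgroup G := L ⊓ T with hD
  let ι : D →* T := Subgroup.inclusion inf_le_right
  let f : D →* T ⧸ N.subgroupOf T := (QuotientGroup.mk' (N.subgroupOf T)).comp ι
  have hfinj : Function.Injective f := by
    rw [injective_iff_map_eq_one]
    intro a ha
    have h3 : ι a ∈ N.subgroupOf T := (QuotientGroup.eq_one_iff _).mp ha
    rw [Subgroup.mem_subgroupOf] at h3
    have h4 : (a : G) ∈ N ⊓ L := ⟨h3, a.2.1⟩
    rw [hNL, Subgroup.mem_bot] at h4
    exact Subtype.ext h4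
  have hfsurj : Function.Surjective f := by
    intro y
    obtain ⟨t, rfl⟩ := QuotientGroup.mk'_surjective (N.subgroupOf T) y
    have h3 : (t : G) ∈ N ⊔ L := by rw [hsup]; trivial
    rw [Subgroup.mem_sup_of_normal_left] at h3
    obtain ⟨n, hn, l, hl, hnl⟩ := h3
    have hlT : l ∈ T := by
      have : l = n⁻¹ * t := by rw [← hnl]; group
      rw [this]
      exact T.mul_mem (T.inv_mem (hNT hn)) t.2
    refine ⟨⟨l, hl, hlT⟩, ?_⟩
    change QuotientGroup.mk' (N.subgroupOf T) _ = QuotientGroup.mk' (N.subgroupOf T) _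
    rw [QuotientGroup.mk'_eq_mk']
    have hln : l⁻¹ * n * l ∈ N := by
      have h := ‹N.Normal›.conj_mem n hn l⁻¹
      rwa [inv_inv] at h
    refine ⟨⟨l⁻¹ * n * l, hNT hln⟩, ?_, ?_⟩
    · rw [Subgroup.mem_subgroupOf]; exact hln
    · apply Subtype.ext
      change l * (l⁻¹ * n * l) = t
      rw [← hnl]; group
  -- cardinalities
  have hcD : Nat.card D = Nat.card (T ⧸ N.subgroupOf T) :=
    Nat.card_congr (Equiv.ofBijective f ⟨hfinj, hfsurj⟩)
  have hcT : Nat.card T = Nat.card D * Nat.card N := by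
    rw [hcD, Subgroup.card_eq_card_quotient_mul_card_subgroup (N.subgroupOf T)]
    congr 1
    exact Nat.card_congr (Subgroup.subgroupOfEquivOfLe hNT).toEquiv
  have hcG : Nat.card G = Nat.card L * Nat.card N := by
    have h3 := H32Cores.card_sup_mul_card_inf L N
    rw [sup_comm, hsup, inf_comm, hNL, Subgroup.card_bot, mul_one, Subgroup.card_top] at h3
    exact h3
  have hrel : D.relIndex L = T.index := by
    have h3 : D.relIndex L * Nat.card D = Nat.card L := (H32Cores.card_eq_relIndex_mul inf_le_left).symm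
    have h4 : T.index * Nat.card T = Nat.card G := by rw [mul_comm]; exact Subgroup.card_mul_index T
    rw [hcG, hcT, ← mul_assoc] at h4
    have h5 : T.index * Nat.card D = Nat.card L := Nat.eq_of_mul_eq_mul_right Nat.card_pos h4
    rw [← h5] at h3
    exact Nat.eq_of_mul_eq_mul_right Nat.card_pos h3
  have hUD : (P.comap f).map D.subtype ≤ D := Subgroup.map_subtype_le _
  refine ⟨(P.comap f).map D.subtype, ⟨hUD.trans inf_le_left, ?_, ?_⟩, hUD.trans inf_le_right, ?_, ?_⟩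
  · exact (hPp.comap_of_injective f hfinj).map _
  · have h3 := Subgroup.relIndex_mul_relIndex ((P.comap f).map D.subtype) D L hUD inf_le_left
    have h4 : ((P.comap f).map D.subtype).relIndex D = P.index := by
      rw [Subgroup.relIndex, Subgroup.subgroupOf, Subgroup.comap_map_eq_self_of_injective
        D.subtype_injective]
      exact Subgroup.index_comap_of_surjective P hfsurj
    rw [← h3, h4, hrel]
    intro hd
    rcases (Nat.Prime.dvd_mul hu).mp hd with h | h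
    · exact hPi h
    · exact h1 h
  · have h3 : (P.comap f).Normal := inferInstance
    intro d hd
    rw [Subgroup.mem_normalizer_iff]
    have key : ∀ d ∈ D, ∀ x ∈ (P.comap f).map D.subtype, d * x * d⁻¹ ∈ (P.comap f).map D.subtype := by
      rintro d hd _ ⟨x, hx, rfl⟩
      exact ⟨⟨d, hd⟩ * x * ⟨d, hd⟩⁻¹, h3.conj_mem x hx ⟨d, hd⟩, rfl⟩
    intro x
    refine ⟨fun hx => key d hd x hx, fun hx => ?_⟩
    have h4 := key d⁻¹ (D.inv_mem hd) _ hx
    have h5 : d⁻¹ * (d * x * d⁻¹) * d⁻¹⁻¹ = x := by group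
    rwa [h5] at h4
  · rintro _ ⟨x, hx, rfl⟩ _ ⟨y, hy, rfl⟩
    have h3 := hPc (f x) hx (f y) hy
    rw [← map_mul, ← map_mul] at h3
    have h4 := hfinj h3
    exact congrArg D.subtype h4


/-- a linear character of a complemented normal subgroup extends to its inertia group -/
theorem exists_ext_linear [Finite G] {N L T : Subgroup G} [N.Normal] (hNL : N ⊓ L = ⊥)
    (hsup : N ⊔ L = ⊤) (hNT : N ≤ T) {θ : N → ℂ} (hθ : IsIrrCharacter N θ) (h1 : θ 1 = 1)
    (hT : ∀ g : G, g ∈ T → cj N g θ = θ) :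
    ∃ η : T → ℂ, IsIrrCharacter T η ∧ ∀ n : N, η ⟨n, hNT n.2⟩ = θ n := by
  classical
  obtain ⟨f, hf⟩ := hθ.isCharacter.exists_hom h1
  have hdec : ∀ g : G, ∃ n ∈ N, ∃ l ∈ L, n * l = g := by
    intro g
    have h3 : g ∈ N ⊔ L := by rw [hsup]; trivial
    rwa [Subgroup.mem_sup_of_normal_left] at h3
  choose a ha b hb hab using hdec
  have huniq : ∀ n ∈ N, ∀ l ∈ L, ∀ n' ∈ N, ∀ l' ∈ L, n * l = n' * l' → n = n' := by
    intro n hn l hl n' hn' l' hl' h
    have h2 : n'⁻¹ * n = l' * l⁻¹ := by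
      calc n'⁻¹ * n = n'⁻¹ * (n * l) * l⁻¹ := by group
        _ = _ := by rw [h]; group
    have h3 : n'⁻¹ * n ∈ N ⊓ L :=
      ⟨N.mul_mem (N.inv_mem hn') hn, by rw [h2]; exact L.mul_mem hl' (L.inv_mem hl)⟩
    rw [hNL, Subgroup.mem_bot] at h3
    exact (inv_mul_eq_one.mp h3).symm
  -- the extension
  let F : T →* ℂˣ := MonoidHom.mk' (fun t => f ⟨a t, ha t⟩) (by
    intro s t
    have hsT : b s ∈ T := by
      have h6 : b s = (a s)⁻¹ * s := eq_inv_mul_of_mul_eq (hab s)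
      rw [h6]
      exact T.mul_mem (T.inv_mem (hNT (ha s))) s.2
    have hc : b s * a t * (b s)⁻¹ ∈ N := ‹N.Normal›.conj_mem _ (ha t) _
    have h3 : a ((s : G) * t) = a s * (b s * a t * (b s)⁻¹) := by
      apply huniq _ (ha _) _ (hb _) _ (N.mul_mem (ha s) hc) (b s * b t) (L.mul_mem (hb s) (hb t))
      rw [hab]
      conv_lhs => rw [← hab s, ← hab t]
      group
    have h4 : f ⟨b s * a t * (b s)⁻¹, hc⟩ = f ⟨a t, ha t⟩ := by
      apply Units.ext
      rw [← hf, ← hf]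
      have h5 := congrFun (hT _ hsT) ⟨a t, ha t⟩
      rw [cj_apply] at h5
      exact h5
    change f ⟨a ((s * t : T) : G), _⟩ = f ⟨a s, ha s⟩ * f ⟨a t, ha t⟩
    rw [← h4, ← map_mul]
    congr 1
    exact Subtype.ext h3)
  refine ⟨fun t => (F t : ℂ), isIrrCharacter_of_unitsHom F, fun n => ?_⟩
  rw [hf]
  change ((f ⟨a n, ha n⟩ : ℂˣ) : ℂ) = _
  congr 2
  exact Subtype.ext (huniq _ (ha _) _ (hb _) _ n.2 1 L.one_mem (by rw [hab, mul_one]))

open Cfsg.Agent.Lib.H16Pal0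

/-- conclusion in the language of `NAS` -/
theorem nas_of_ext [Finite G] [hs : Group.IsSolvable G] {N L : Subgroup G} [N.Normal]
    (h1 : N ⊓ L = ⊥) (h2 : N ⊔ L = ⊤) {θ : N → ℂ} (hθ : IsIrrCharacter N θ)
    (hext : ∃ η : inertia N θ → ℂ, IsIrrCharacter (inertia N θ) η ∧
      ∀ n : N, η ⟨n, le_inertia hθ.isClassFunction n.2⟩ = θ n) {p : ℕ} (hp : p.Prime)
    (hdeg : ∀ χ : IrrCharacter G, Over N (χ : G → ℂ) θ → ¬ p ∣ charDegree (χ : G → ℂ)) :
    NAS p L (inertia N θ ⊓ L) := by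
  obtain ⟨η, hη, hηe⟩ := hext
  letI := Fintype.ofFinite N
  obtain ⟨U, hU, hUT, hUn, hUa⟩ := exists_syl_of_ext hs h1 h2 (le_inertia hθ.isClassFunction) hθ
    (fun g => mem_inertia) hη hηe hp hdeg
  refine ⟨U, le_inf hUT hU.le, ?_, hU.pgroup, hU.ndvd, hUa⟩
  rw [inf_comm]; exact hUn

/-- P5a (linear case) -/
theorem p5lin [Finite G] [Group.IsSolvable G] {N L : Subgroup G} [N.Normal] (h1 : N ⊓ L = ⊥)
    (h2 : N ⊔ L = ⊤) {θ : N → ℂ} (hθ : IsIrrCharacter N θ) (hθ1 : θ 1 = 1) {p : ℕ} (hp : p.Prime)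
    (hdeg : ∀ χ : IrrCharacter G, Over N (χ : G → ℂ) θ → ¬ p ∣ charDegree (χ : G → ℂ)) :
    NAS p L (inertia N θ ⊓ L) :=
  nas_of_ext h1 h2 hθ (exists_ext_linear h1 h2 _ hθ hθ1 (fun _ h => h)) hp hdeg

/-- P5b (coprime case) -/
theorem p5cop [Finite G] [Group.IsSolvable G] {N L : Subgroup G} [N.Normal] (h1 : N ⊓ L = ⊥)
    (h2 : N ⊔ L = ⊤) (hc : (Nat.card N).Coprime (Nat.card L)) {θ : N → ℂ}
    (hθ : IsIrrCharacter N θ) {p : ℕ} (hp : p.Prime)
    (hdeg : ∀ χ : IrrCharacter G, Over N (χ : G → ℂ) θ → ¬ p ∣ charDegree (χ : G → ℂ)) :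
    NAS p L (inertia N θ ⊓ L) := by
  refine nas_of_ext h1 h2 hθ ?_ hp hdeg
  have hi : N.index = Nat.card L := by
    have h3 := H32Cores.card_sup_mul_card_inf L N
    rw [sup_comm, h2, inf_comm, h1, Subgroup.card_bot, mul_one, Subgroup.card_top,
      ← Subgroup.card_mul_index N, mul_comm] at h3
    exact Nat.eq_of_mul_eq_mul_right Nat.card_pos h3
  obtain ⟨η, hη, hηe⟩ := ExtDeg.exists_ext (T := inertia N θ) (le_inertia hθ.isClassFunction) hθ
    (fun _ h => h) (by rw [hi]; exact hc.symm)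
  exact ⟨η, hη, fun n => congrFun hηe n⟩

end Cfsg.Agent.Lib.H16PalP5
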