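import Mathlib
import Cfsg.Agent.Lib.CrossDeg
import Cfsg.Agent.Lib.VanPSing
import Cfsg.Agent.Lib.H72Baer
import Cfsg.Agent.Lib.CoprimeAction2
import Cfsg.Agent.Lib.TwoDeg
import Cfsg.Agent.Lib.CharDegrees
import Cfsg.Agent.Lib.BlockDeg

/-!
Piece P6 of S4847: if the normal Sylow subgroups `U`, `W` of the complement `L` centralize `V ≥ T'`, then one of them is
normal in `G`.
-/

set_option autoImplicit false

namespace Cfsg.Agent.Lib.H39Pal

open Cfsg Cfsg.Agent.Lib Cfsg.Agent.Lib.CharBasic Cfsg.Agent.Lib.Clifford Cfsg.Agent.Lib.CliffordCorr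
open Subgroup

universe u
variable {G : Type u} [Group G] [Finite G]

theorem sylow_le_inertia {p : ℕ} [hp : Fact p.Prime] (N : Subgroup G) [N.Normal] [Fintype N] {χ : G → ℂ}
    (hχ : IsIrrCharacter G χ) {θ : N → ℂ} (hθ : IsIrrCharacter N θ)
    (h : classInner (fun n : N => χ n) θ ≠ 0) (hd : ¬ p ∣ charDegree χ) :
    ∃ P : Sylow p G, (P : Subgroup G) ≤ inertia N θ :=
  H72Baer.exists_sylow_le (fun h1 => hd (h1.trans (CrossDeg.inertia_index_dvd N hχ hθ h)))

theorem normal_le {p : ℕ} [hp : Fact p.Prime] {T L U I : Subgroup G} [T.Normal] (hTL : T ⊔ L = ⊤)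
    (hUn : L ≤ normalizer (U : Set G)) (hUs : IsPGroup p U) (hUi : ¬ p ∣ U.index) (hTI : T ≤ I)
    (hI : ∃ P : Sylow p G, (P : Subgroup G) ≤ I) : U ≤ I := by
  obtain ⟨P, hP⟩ := hI
  obtain ⟨g, hg⟩ := MulAction.exists_smul_eq G P (hUs.toSylow hUi)
  have hgU : ∀ z ∈ U, g⁻¹ * z * g ∈ (P : Subgroup G) := by
    intro z hz
    have h1 : z ∈ ((g • P : Sylow p G) : Subgroup G) := by
      rw [hg]
      exact hz
    rw [Sylow.coe_subgroup_smul, Subgroup.mem_pointwise_smul_iff_inv_smul_mem] at h1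
    simpa [MulAut.smul_def, MulAut.conj_apply] using h1
  have h2 : g⁻¹ ∈ T ⊔ L := hTL ▸ mem_top _
  obtain ⟨y, hy, k, hk, hyk⟩ := mem_sup_of_normal_left.1 h2
  intro a ha
  have hka : k⁻¹ * a * k ∈ U := by
    have := (mem_normalizer_iff.1 (hUn (L.inv_mem hk)) a).1 ha
    simpa using this
  have h3 := hgU _ hka
  have hg' : g = k⁻¹ * y⁻¹ := by
    rw [← inv_inj, ← hyk]
    group
  have h4 : y * (k * (k⁻¹ * a * k) * k⁻¹) * y⁻¹ ∈ I := by
    apply hP
    convert h3 using 1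
    rw [hg']
    group
  have h5 : k * (k⁻¹ * a * k) * k⁻¹ = a := by group
  rw [h5] at h4
  have h6 := I.mul_mem (I.mul_mem (I.inv_mem (hTI hy)) h4) (hTI hy)
  convert h6 using 1
  group

/-- linear characters as functions -/
noncomputable def lin {T : Subgroup G} (μ : T →* ℂˣ) : T → ℂ := fun x => (μ x : ℂ)

theorem lin_irr {T : Subgroup G} (μ : T →* ℂˣ) : IsIrrCharacter T (lin μ) := isIrrCharacter_of_unitsHom μ

/-- the linear characters of `T` fixed by `U` -/
def fixHom (T : Subgroup G) [T.Normal] (U : Subgroup G) : Subgroup (T →* ℂˣ) where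
  carrier := {μ | ∀ a ∈ U, ∀ x : T, μ (MulAut.conjNormal a x) = μ x}
  one_mem' := fun _ _ _ => rfl
  mul_mem' {μ ν} h1 h2 := fun a ha x => by
    rw [MonoidHom.mul_apply, MonoidHom.mul_apply, h1 a ha, h2 a ha]
  inv_mem' {μ} h1 := fun a ha x => by
    rw [MonoidHom.inv_apply, MonoidHom.inv_apply, h1 a ha]

theorem mem_fixHom_of_le_inertia {T : Subgroup G} [T.Normal] {U : Subgroup G} {μ : T →* ℂˣ}
    (h : U ≤ inertia T (lin μ)) : μ ∈ fixHom T U := by
  intro a ha x
  have h1 := congrFun (mem_inertia.1 (h ha)) x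
  rw [cj_eq_comp] at h1
  exact Units.ext h1

/-- if all linear characters of `T` are fixed by `U` then `[T,U] ≤ T'` -/
theorem comm_le {T : Subgroup G} [T.Normal] {U : Subgroup G} (h : fixHom T U = ⊤) :
    ⁅T, U⁆ ≤ ⁅T, T⁆ := by
  rw [Subgroup.commutator_le]
  intro x hx a ha
  have h1 : (⟨x, hx⟩ : T) * (MulAut.conjNormal a ⟨x, hx⟩)⁻¹ ∈ commutator T := by
    apply VanPSing.mem_commutator_of_forall
    intro μ
    have h2 : μ ∈ fixHom T U := by rw [h]; trivial
    rw [map_mul, map_inv, h2 a ha, mul_inv_cancel]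
  have h3 := Subgroup.mem_map_of_mem T.subtype h1
  rw [commutator_def, Subgroup.map_commutator, ← MonoidHom.range_eq_map, Subgroup.range_subtype] at h3
  convert h3 using 1
  simp [commutatorElement_def, mul_assoc]

theorem fin_normal {t p : ℕ} [ht : Fact t.Prime] [hp : Fact p.Prime] {T L V U : Subgroup G} [T.Normal]
    (hTL : T ⊔ L = ⊤) (hT : IsPGroup t T) (htp : t ≠ p) (hTV : ⁅T, T⁆ ≤ V)
    (hUn : L ≤ normalizer (U : Set G)) (hU : IsPGroup p U) (hUV : V ≤ centralizer (U : Set G))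
    (hfix : fixHom T U = ⊤) : U.Normal := by
  have h1 : T ≤ centralizer (U : Set G) := by
    have hcop : (Nat.card U).Coprime (Nat.card T) := IsPGroup.coprime_card_of_ne p t (Ne.symm htp) U T hU hT
    refine CoprimeAction2.le_centralizer_of_series (A := U) (K := T) (N := V) ?_ hcop ?_ ((comm_le hfix).trans hTV) hUV
    · rw [normalizer_eq_top]
      exact le_top
    · left
      haveI : Group.IsNilpotent U := hU.isNilpotent
      infer_instance
  rw [← normalizer_eq_top_iff, eq_top_iff, ← hTL]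
  refine sup_le (fun x hx => ?_) hUn
  rw [mem_normalizer_iff]
  intro y
  have h3 : ∀ z ∈ U, x * z * x⁻¹ = z := by
    intro z hz
    rw [← (mem_centralizer_iff.1 (h1 hx)) z hz, mul_inv_cancel_right]
  constructor
  · intro hy
    rw [h3 y hy]
    exact hy
  · intro hy
    have h4 := h3 _ hy
    have h5 : x * y * x⁻¹ = y := by
      have := congrArg (fun z => x⁻¹ * z * x) h4
      simpa [mul_assoc] using this
    rw [← h5]
    exact hy

theorem union_eq_top {A : Type*} [Group A] {H K : Subgroup A} (h : ∀ x, x ∈ H ∨ x ∈ K) : H = ⊤ ∨ K = ⊤ := by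
  by_contra hcon
  rw [not_or, Subgroup.eq_top_iff', Subgroup.eq_top_iff'] at hcon
  push Not at hcon
  obtain ⟨⟨a, ha⟩, ⟨b, hb⟩⟩ := hcon
  have haK := (h a).resolve_left ha
  have hbH := (h b).resolve_right hb
  rcases h (a * b) with h1 | h1
  · exact ha ((H.mul_mem_cancel_right hbH).1 h1)
  · exact hb ((K.mul_mem_cancel_left haK).1 h1)

theorem p6_normal {t p q : ℕ} [ht : Fact t.Prime] [hp : Fact p.Prime] [hq : Fact q.Prime] {T L V U W : Subgroup G}
    [T.Normal] (hTL : T ⊔ L = ⊤) (hT : IsPGroup t T) (htp : t ≠ p) (htq : t ≠ q) (hTV : ⁅T, T⁆ ≤ V)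
    (hUn : L ≤ normalizer (U : Set G)) (hU : IsPGroup p U) (hUi : ¬ p ∣ U.index) (hUV : V ≤ centralizer (U : Set G))
    (hWn : L ≤ normalizer (W : Set G)) (hW : IsPGroup q W) (hWi : ¬ q ∣ W.index) (hWV : V ≤ centralizer (W : Set G))
    (hdeg : ∀ χ : IrrCharacter G, p ∣ charDegree (χ : G → ℂ) → ¬ q ∣ charDegree (χ : G → ℂ)) :
    U.Normal ∨ W.Normal := by
  classical
  haveI := Fintype.ofFinite G
  haveI := Fintype.ofFinite T
  have key : ∀ μ : T →* ℂˣ, μ ∈ fixHom T U ∨ μ ∈ fixHom T W := by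
    intro μ
    obtain ⟨χ, hχ, hχμ⟩ := TwoDeg.exists_over T (lin_irr μ)
    have hTI : T ≤ inertia T (lin μ) := le_inertia (lin_irr μ).isClassFunction
    by_cases h1 : p ∣ charDegree χ
    · right
      have h2 : ¬ q ∣ charDegree χ := hdeg ⟨χ, hχ⟩ h1
      exact mem_fixHom_of_le_inertia (normal_le hTL hWn hW hWi hTI (sylow_le_inertia T hχ (lin_irr μ) hχμ h2))
    · left
      exact mem_fixHom_of_le_inertia (normal_le hTL hUn hU hUi hTI (sylow_le_inertia T hχ (lin_irr μ) hχμ h1))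
  rcases union_eq_top key with h | h
  · exact Or.inl (fin_normal hTL hT htp hTV hUn hU hUV h)
  · exact Or.inr (fin_normal hTL hT htq hTV hWn hW hWV h)

end Cfsg.Agent.Lib.H39Pal
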