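import Mathlib
import Cfsg.Agent.Lib.H16Pal0
import Cfsg.Agent.Lib.H39Pal6
import Cfsg.Agent.Lib.H16Reynolds
import Cfsg.Agent.S4449

/-!
Pieces P9a, P9b, P6 of S4847 (with the coprime case of P5 as an explicit hypothesis).
-/

set_option autoImplicit false

namespace Cfsg.Agent.Lib.H39Pal

open Cfsg Cfsg.Agent.Lib Cfsg.Agent.Lib.CharBasic Cfsg.Agent.Lib.Clifford Cfsg.Agent.Lib.CliffordCorr
open Cfsg.Agent.Lib.H16Pal0
open Subgroup

universe u
variable {G : Type u} [Group G] [Finite G]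

/-- the black box `p5cop` -/
def P5 (T L : Subgroup G) [T.Normal] : Prop :=
  ∀ (θ : T → ℂ), IsIrrCharacter T θ → ∀ p : ℕ, p.Prime →
    (∀ χ : IrrCharacter G, Over T (χ : G → ℂ) θ → ¬ p ∣ charDegree (χ : G → ℂ)) → NAS p L (inertia T θ ⊓ L)

theorem p9a' {T V L : Subgroup G} {t p q : ℕ} [T.Normal] (hP5 : P5 T L) (h : SB T V L t p q) (θ : T → ℂ)
    (hθ : IsIrrCharacter T θ) (hθ1 : θ 1 ≠ 1) : NAS p L (inertia T θ ⊓ L) ∧ NAS q L (inertia T θ ⊓ L) := by
  classical
  haveI := Fintype.ofFinite G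
  haveI : Fact t.Prime := ⟨h.pt⟩
  have h1 : t ∣ charDegree θ := by
    have h2 := BlockDeg.charDegree_dvd_card hθ
    obtain ⟨n, hn⟩ := IsPGroup.iff_card.1 h.Tt
    rw [hn] at h2
    obtain ⟨k, -, hk⟩ := (Nat.dvd_prime_pow h.pt).1 h2
    rcases Nat.eq_zero_or_pos k with rfl | hk0
    · exfalso
      apply hθ1
      have h5 : ((charDegree θ : ℕ) : ℂ) = θ 1 := BlockDeg.charDegree_cast_irr (⟨θ, hθ⟩ : IrrCharacter T)
      rw [← h5, hk, pow_zero, Nat.cast_one]
    · rw [hk]
      exact dvd_pow_self _ hk0.ne'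
  have h3 : ∀ χ : IrrCharacter G, Over T (χ : G → ℂ) θ → t ∣ charDegree (χ : G → ℂ) := by
    intro χ hχ
    letI := Fintype.ofFinite T
    obtain ⟨n, -, -, h4⟩ := H16Reynolds.degree_nat χ (⟨θ, hθ⟩ : IrrCharacter T) hχ
    rw [h4]
    exact (h1.mul_left _).mul_left _
  exact ⟨hP5 θ hθ p h.pp (fun χ hχ => h.degp χ (h3 χ hχ)), hP5 θ hθ q h.pq (fun χ hχ => h.degq χ (h3 χ hχ))⟩

theorem p9b' {T V L : Subgroup G} {t p q : ℕ} [T.Normal] [V.Normal] (hP5 : P5 T L) (h : SB T V L t p q)
    (lam : V → ℂ) (hl : IsIrrCharacter V lam) (hl1 : lam ≠ 1) :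
    NAS p L (inertia V lam ⊓ L) ∧ NAS q L (inertia V lam ⊓ L) := by
  classical
  haveI := Fintype.ofFinite G
  haveI := Fintype.ofFinite T
  haveI := Fintype.ofFinite V
  haveI := h.sol
  have hVT : V ≤ T := by
    rw [← h.hV, commutator_le]
    exact fun x hx y hy => T.mul_mem (T.mul_mem (T.mul_mem hx hy) (T.inv_mem hx)) (T.inv_mem hy)
  obtain ⟨χ, hχ1, hχ2⟩ := S4449.result T (inertia V lam ⊓ L) V
    (fun s _ g hg => Subgroup.Normal.conj_mem inferInstance g hg s) hVT
    (fun g _ n hn => Subgroup.Normal.conj_mem inferInstance n hn g)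
    (fun g _ n hn => Subgroup.Normal.conj_mem inferInstance n hn g)
    (h.cop.coprime_dvd_right (card_dvd_of_le inf_le_right)) inferInstance ⟨lam, hl⟩ (by
      intro s hs g g' hg
      have h1 := congrFun (mem_inertia.1 hs.1) g
      rw [cj_apply] at h1
      simp only
      rw [← h1]
      congr 1
      exact Subtype.ext hg)
  -- the restriction to `V`
  obtain ⟨c, hc0, hc⟩ : ∃ c : ℂ, c ≠ 0 ∧ ∀ v : V, (χ : T → ℂ) ⟨v, hVT v.2⟩ = c * lam v := by
    let V' : Subgroup T := V.subgroupOf T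
    letI : Fintype V' := Fintype.ofFinite _
    let e : V' ≃* V := subgroupOfEquivOfLe hVT
    have hl' : IsIrrCharacter V' (fun x => lam (e x)) := (isIrrCharacter_comp_mulEquiv_iff e).2 hl
    have hin : classInner (fun n : V' => (χ : T → ℂ) n) (fun x => lam (e x)) =
        classInner (fun n : V => (χ : T → ℂ) ⟨n, hVT n.2⟩) lam := by
      rw [← classInner_comp_equiv e]
      rfl
    have h1 := res_eq_smul_of_invariant χ.2 hl' (by
      intro g
      funext n
      rw [cj_apply]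
      have h2 : (g : G) * (n : T) * (g : G)⁻¹ = (n : T) := by
        rw [← h.VZ (n : T) n.2 g g.2, mul_inv_cancel_right]
      have h2' : (⟨g * n * g⁻¹, (inferInstance : V'.Normal).conj_mem (n : T) n.2 g⟩ : V') = n :=
        Subtype.ext (Subtype.ext h2)
      exact congrArg (fun z => lam (e z)) h2') (by rw [hin]; exact hχ1)
    refine ⟨classInner (fun n : V' => (χ : T → ℂ) n) (fun x => lam (e x)), by rw [hin]; exact hχ1, fun v => ?_⟩
    have h2 := congrFun h1 (e.symm v)
    rw [Pi.smul_apply, smul_eq_mul] at h2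
    rw [MulEquiv.apply_symm_apply] at h2
    exact h2
  have hne : (χ : T → ℂ) 1 ≠ 1 := by
    intro h1
    obtain ⟨f, hf⟩ := χ.2.isCharacter.exists_hom h1
    apply hl1
    have h2 : ∀ v : V, c * lam v = 1 := by
      intro v
      rw [← hc, hf]
      have h3 : (⟨v, hVT v.2⟩ : T) ∈ commutator T := by
        have h4 : (v : G) ∈ (commutator T).map T.subtype := by
          rw [commutator_def, map_commutator, ← MonoidHom.range_eq_map, range_subtype, h.hV]
          exact v.2
        obtain ⟨y, hy, hyv⟩ := h4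
        have : y = ⟨v, hVT v.2⟩ := Subtype.ext hyv
        rwa [this] at hy
      have h5 : f ⟨v, hVT v.2⟩ = 1 := Abelianization.commutator_subset_ker f h3
      rw [h5, Units.val_one]
    have h3 : lam = fun _ => c⁻¹ := by
      funext v
      exact eq_inv_of_mul_eq_one_right (h2 v)
    by_contra hne
    have h6 := hl.classInner_eq isIrrCharacter_one
    rw [if_neg hne, h3] at h6
    revert h6
    have h4 : (fun _ : V => c⁻¹) = c⁻¹ • (1 : V → ℂ) := by
      funext v
      simp
    rw [h4, classInner_smul_left, isIrrCharacter_one.classInner_self, mul_one]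
    exact inv_ne_zero hc0
  have heq : inertia T (χ : T → ℂ) ⊓ L = inertia V lam ⊓ L := by
    ext x
    constructor
    · rintro ⟨h1, h2⟩
      refine ⟨?_, h2⟩
      change cj V x lam = lam
      funext v
      rw [cj_apply]
      have h3 := congrFun (mem_inertia.1 h1) ⟨v, hVT v.2⟩
      rw [cj_apply] at h3
      have h4 := hc ⟨x * v * x⁻¹, (inferInstance : V.Normal).conj_mem (v : G) v.2 x⟩
      apply mul_left_cancel₀ hc0
      rw [← h4, ← hc]
      exact h3
    · rintro ⟨h1, h2⟩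
      refine ⟨?_, h2⟩
      change cj T x (χ : T → ℂ) = χ
      funext y
      rw [cj_apply]
      exact hχ2 x ⟨h1, h2⟩ y _ rfl
  rw [← heq]
  exact p9a' hP5 h χ χ.2 hne

end Cfsg.Agent.Lib.H39Pal
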