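import Mathlib
import Cfsg.Agent.Lib.H39Pal9

/-!
Piece P6 of S4847: both Sylow subgroups centralise `V` (with the coprime case of P5 as an explicit hypothesis).
-/

set_option autoImplicit false

namespace Cfsg.Agent.Lib.H39Pal

open Cfsg Cfsg.Agent.Lib Cfsg.Agent.Lib.CharBasic Cfsg.Agent.Lib.Clifford Cfsg.Agent.Lib.CliffordCorr
open Cfsg.Agent.Lib.H16Pal0
open Subgroup

universe u
variable {G : Type u} [Group G] [Finite G]

theorem exists_lam_ne {V : Subgroup G} (V1 : V ≠ ⊥) (Vab : ∀ a ∈ V, ∀ b ∈ V, a * b = b * a) :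
    ∃ lam : V → ℂ, IsIrrCharacter V lam ∧ lam ≠ 1 := by
  obtain ⟨x, hx, hx1⟩ := V.bot_or_exists_ne_one.resolve_left V1
  have h1 : ∃ l : V →* ℂˣ, l ⟨x, hx⟩ ≠ 1 := by
    by_contra hcon
    push Not at hcon
    have h2 := VanPSing.mem_commutator_of_forall hcon
    have h3 : commutator V = ⊥ := by
      rw [commutator_def, Subgroup.commutator_eq_bot_iff_le_centralizer]
      intro a _
      rw [mem_centralizer_iff]
      intro b _
      exact Subtype.ext (Vab b b.2 a a.2)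
    rw [h3, mem_bot] at h2
    exact hx1 (congrArg Subtype.val h2)
  obtain ⟨l, hl⟩ := h1
  refine ⟨lin l, lin_irr l, fun h2 => hl ?_⟩
  have h3 := congrFun h2 ⟨x, hx⟩
  exact Units.ext h3

theorem index_eq_card {T L : Subgroup G} [T.Normal] (hTL : T ⊓ L = ⊥) (hTL' : T ⊔ L = ⊤) : L.index = Nat.card T := by
  have h1 : IsComplement' T L := by
    refine isComplement'_of_disjoint_and_mul_eq_univ (disjoint_iff.2 hTL) ?_
    rw [← normal_mul, hTL', coe_top]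
  exact h1.index_eq_card

theorem exists_normal_aux {T V L : Subgroup G} {t r : ℕ} [ht : Fact t.Prime] [hr : Fact r.Prime] [T.Normal]
    [hVn : V.Normal] (hT : IsPGroup t T) (htr : t ≠ r) (hTL : T ⊓ L = ⊥) (hTL' : T ⊔ L = ⊤) (V1 : V ≠ ⊥)
    (Vab : ∀ a ∈ V, ∀ b ∈ V, a * b = b * a)
    (hN : ∀ lam : V → ℂ, IsIrrCharacter V lam → lam ≠ 1 → NAS r L (inertia V lam ⊓ L)) (hc : CS r L V) :
    ∃ U : Subgroup G, U ≤ L ∧ L ≤ normalizer (U : Set G) ∧ IsPGroup r U ∧ ¬ r ∣ U.index ∧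
      (∀ x ∈ U, ∀ y ∈ U, x * y = y * x) ∧ V ≤ centralizer (U : Set G) := by
  obtain ⟨lam, hl, hl1⟩ := exists_lam_ne V1 Vab
  obtain ⟨U, hUA, hUn, hU, hUi, hUa⟩ := hN lam hl hl1
  obtain ⟨U1, hU1L, hU1, hU1i, hU1V⟩ := hc
  have hUL : U ≤ L := hUA.trans inf_le_right
  -- `U` centralizes `V`
  have hUV : ∀ a ∈ U, ∀ v ∈ V, a * v = v * a := by
    let P : Sylow r L := (hU.comap_subtype (K := L)).toSylow hUi
    let P1 : Sylow r L := (hU1.comap_subtype (K := L)).toSylow hU1i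
    obtain ⟨l, hl⟩ := MulAction.exists_smul_eq L P1 P
    intro a ha v hv
    have h1 : (⟨a, hUL ha⟩ : L) ∈ ((l • P1 : Sylow r L) : Subgroup L) := by
      rw [hl]
      exact ha
    rw [Sylow.coe_subgroup_smul, Subgroup.mem_pointwise_smul_iff_inv_smul_mem] at h1
    have h2 : (l : G)⁻¹ * a * l ∈ U1 := by
      have h3 : (l⁻¹ * ⟨a, hUL ha⟩ * l : L) ∈ (P1 : Subgroup L) := by
        simpa [MulAut.smul_def, MulAut.conj_apply] using h1
      exact h3
    have h4 := hU1V _ h2 ((l : G)⁻¹ * v * l) (by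
      have := hVn.conj_mem v hv (l : G)⁻¹
      rwa [inv_inv] at this)
    have h5 := congrArg (fun z => (l : G) * z * (l : G)⁻¹) h4
    calc a * v = (l : G) * ((l : G)⁻¹ * a * l * ((l : G)⁻¹ * v * l)) * (l : G)⁻¹ := by group
      _ = (l : G) * ((l : G)⁻¹ * v * l * ((l : G)⁻¹ * a * l)) * (l : G)⁻¹ := h5
      _ = v * a := by group
  have hLU : ∀ l ∈ L, ∀ x ∈ U, l * x * l⁻¹ ∈ U := by
    intro l hl x hx
    set K : Subgroup G := U.map (MulAut.conj l).toMonoidHom with hK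
    have hKp : IsPGroup r K := hU.map _
    have hKA : K ≤ inertia V lam ⊓ L := by
      rintro _ ⟨y, hy, rfl⟩
      refine ⟨?_, L.mul_mem (L.mul_mem hl (hUL hy)) (L.inv_mem hl)⟩
      change cj V (l * y * l⁻¹) lam = lam
      funext v
      rw [cj_apply]
      congr 1
      apply Subtype.ext
      have h1 : l⁻¹ * (v : G) * l ∈ V := by
        have := hVn.conj_mem v v.2 l⁻¹
        rwa [inv_inv] at this
      have h2 := hUV y hy _ h1
      change l * y * l⁻¹ * (v : G) * (l * y * l⁻¹)⁻¹ = v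
      calc l * y * l⁻¹ * (v : G) * (l * y * l⁻¹)⁻¹ = l * (y * (l⁻¹ * (v : G) * l)) * (y⁻¹ * l⁻¹) := by group
        _ = l * ((l⁻¹ * (v : G) * l) * y) * (y⁻¹ * l⁻¹) := by rw [h2]
        _ = v := by group
    have hKU : IsPGroup r (K ⊔ U : Subgroup G) := hKp.to_sup_of_normal_right' hU (hKA.trans hUn)
    have hKUL : K ⊔ U ≤ L := sup_le (hKA.trans inf_le_right) hUL
    have h3 := relIndex_mul_relIndex U (K ⊔ U) L le_sup_right hKUL
    have h4 : ¬ r ∣ U.relIndex (K ⊔ U) := fun h => hUi (h3 ▸ h.mul_right _)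
    have h5 : U.relIndex (K ⊔ U) = 1 := by
      have h6 : U.relIndex (K ⊔ U) ∣ Nat.card (K ⊔ U : Subgroup G) := relIndex_dvd_card _ _
      obtain ⟨n, hn⟩ := IsPGroup.iff_card.1 hKU
      rw [hn] at h6
      obtain ⟨k, -, hk⟩ := (Nat.dvd_prime_pow hr.out).1 h6
      rcases Nat.eq_zero_or_pos k with rfl | hk0
      · rw [hk, pow_zero]
      · exact absurd (hk ▸ dvd_pow_self r hk0.ne') h4
    rw [relIndex_eq_one] at h5
    exact h5 (le_sup_left (a := K) (mem_map_of_mem _ hx))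
  refine ⟨U, hUL, ?_, hU, ?_, hUa, ?_⟩
  · intro l hl
    rw [mem_normalizer_iff]
    intro x
    refine ⟨hLU l hl x, fun hx => ?_⟩
    have h1 := hLU l⁻¹ (L.inv_mem hl) _ hx
    have h2 : l⁻¹ * (l * x * l⁻¹) * l⁻¹⁻¹ = x := by group
    rwa [h2] at h1
  · rw [← relIndex_mul_index hUL, index_eq_card hTL hTL', hr.out.dvd_mul, not_or]
    refine ⟨hUi, fun h1 => ?_⟩
    obtain ⟨n, hn⟩ := IsPGroup.iff_card.1 hT
    rw [hn] at h1
    exact htr ((Nat.prime_dvd_prime_iff_eq hr.out ht.out).1 (hr.out.dvd_of_dvd_pow h1)).symm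
  · intro v hv
    rw [mem_centralizer_iff]
    intro a ha
    exact hUV a ha v hv

/-- in case B, if the Sylow `p`-subgroups centralise `V`, then the Sylow `p`-subgroup of `L` is normal and abelian -/
theorem exists_normal_of_CS' {T V L : Subgroup G} {t p q : ℕ} [T.Normal] [V.Normal] (hP5 : P5 T L)
    (h : SB T V L t p q) : (CS p L V → ∃ U : Subgroup G, U ≤ L ∧ L ≤ normalizer (U : Set G) ∧ IsPGroup p U ∧
      ¬ p ∣ U.index ∧ (∀ x ∈ U, ∀ y ∈ U, x * y = y * x) ∧ V ≤ centralizer (U : Set G)) ∧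
    (CS q L V → ∃ U : Subgroup G, U ≤ L ∧ L ≤ normalizer (U : Set G) ∧ IsPGroup q U ∧
      ¬ q ∣ U.index ∧ (∀ x ∈ U, ∀ y ∈ U, x * y = y * x) ∧ V ≤ centralizer (U : Set G)) := by
  haveI : Fact t.Prime := ⟨h.pt⟩
  haveI : Fact p.Prime := ⟨h.pp⟩
  haveI : Fact q.Prime := ⟨h.pq⟩
  have hVT : V ≤ T := by
    rw [← h.hV, commutator_le]
    exact fun x hx y hy => T.mul_mem (T.mul_mem (T.mul_mem hx hy) (T.inv_mem hx)) (T.inv_mem hy)
  exact ⟨fun hc => exists_normal_aux h.Tt h.tp h.TL h.TL' h.V1 (fun a ha b hb => h.VZ a ha b (hVT hb))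
      (fun lam hl hl1 => (p9b' hP5 h lam hl hl1).1) hc,
    fun hc => exists_normal_aux h.Tt h.tq h.TL h.TL' h.V1 (fun a ha b hb => h.VZ a ha b (hVT hb))
      (fun lam hl hl1 => (p9b' hP5 h lam hl hl1).2) hc⟩

theorem p6' {T V L : Subgroup G} {t p q : ℕ} [T.Normal] (hP5 : P5 T L) (h : SB T V L t p q) (hcp : CS p L V)
    (hcq : CS q L V) : False := by
  haveI : Fact t.Prime := ⟨h.pt⟩
  haveI : Fact p.Prime := ⟨h.pp⟩
  haveI : Fact q.Prime := ⟨h.pq⟩
  haveI := h.Vn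
  obtain ⟨U, -, hUn, hU, hUi, hUa, hUV⟩ := (exists_normal_of_CS' hP5 h).1 hcp
  obtain ⟨W, -, hWn, hW, hWi, hWa, hWV⟩ := (exists_normal_of_CS' hP5 h).2 hcq
  rcases p6_normal h.TL' h.Tt h.tp h.tq h.hV.le hUn hU hUi hUV hWn hW hWi hWV h.degpq with h1 | h1
  · exact h.np ⟨U, h1, hUa, hU, hUi⟩
  · exact h.nq ⟨W, h1, hWa, hW, hWi⟩

end Cfsg.Agent.Lib.H39Pal
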