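import Mathlib
import Cfsg.Agent.Lib.H39PalB
import Cfsg.Agent.Lib.H16PalP5

/-!
Pieces P9a, P9b of S4847.
-/

set_option autoImplicit false

namespace Cfsg.Agent.Lib.H16PalP9

open Cfsg Cfsg.Agent.Lib Cfsg.Agent.Lib.CharBasic Cfsg.Agent.Lib.Clifford Cfsg.Agent.Lib.CliffordCorr
open Cfsg.Agent.Lib.H16Pal0
open Subgroup

universe u
variable {G : Type u} [Group G] [Finite G]

theorem p5 {T V L : Subgroup G} {t p q : ℕ} [T.Normal] (h : SB T V L t p q) : H39Pal.P5 T L := by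
  haveI := h.sol
  intro θ hθ r hr hdeg
  exact H16PalP5.p5cop h.TL h.TL' h.cop hθ hr hdeg

/-- P9a (case B) nonlinear characters of T. -/
theorem p9a {T V L : Subgroup G} {t p q : ℕ} [T.Normal] (h : SB T V L t p q) (θ : T → ℂ) (hθ : IsIrrCharacter T θ)
    (hθ1 : θ 1 ≠ 1) : NAS p L (inertia T θ ⊓ L) ∧ NAS q L (inertia T θ ⊓ L) :=
  H39Pal.p9a' (p5 h) h θ hθ hθ1

/-- P9b (case B) characters of V. -/
theorem p9b {T V L : Subgroup G} {t p q : ℕ} [V.Normal] (h : SB T V L t p q) (lam : V → ℂ)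
    (hl : IsIrrCharacter V lam) (hl1 : lam ≠ 1) : NAS p L (inertia V lam ⊓ L) ∧ NAS q L (inertia V lam ⊓ L) := by
  haveI := h.Tn
  exact H39Pal.p9b' (p5 h) h lam hl hl1

/-- in case B, if the Sylow `p`-subgroups centralise `V`, then the Sylow `p`-subgroup of `L` is normal and abelian -/
theorem exists_normal_of_CS_p {T V L : Subgroup G} {t p q : ℕ} (h : SB T V L t p q) (hc : CS p L V) :
    ∃ U : Subgroup G, U ≤ L ∧ L ≤ normalizer (U : Set G) ∧ IsPGroup p U ∧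
      ¬ p ∣ U.index ∧ (∀ x ∈ U, ∀ y ∈ U, x * y = y * x) ∧ V ≤ centralizer (U : Set G) := by
  haveI := h.Tn
  haveI := h.Vn
  exact (H39Pal.exists_normal_of_CS' (p5 h) h).1 hc

theorem exists_normal_of_CS_q {T V L : Subgroup G} {t p q : ℕ} (h : SB T V L t p q) (hc : CS q L V) :
    ∃ U : Subgroup G, U ≤ L ∧ L ≤ normalizer (U : Set G) ∧ IsPGroup q U ∧
      ¬ q ∣ U.index ∧ (∀ x ∈ U, ∀ y ∈ U, x * y = y * x) ∧ V ≤ centralizer (U : Set G) := by
  haveI := h.Tn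
  haveI := h.Vn
  exact (H39Pal.exists_normal_of_CS' (p5 h) h).2 hc

end Cfsg.Agent.Lib.H16PalP9
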