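import Mathlib
import Cfsg.Agent.Lib.H16PalP9

/-!
Piece P6 of S4847.
-/

set_option autoImplicit false

namespace Cfsg.Agent.Lib.H16PalP6

open Cfsg Cfsg.Agent.Lib Cfsg.Agent.Lib.H16Pal0
open Subgroup

universe u
variable {G : Type u} [Group G] [Finite G]

/-- P6 (case B, both Sylow subgroups centralise V). -/
theorem p6 {T V L : Subgroup G} {t p q : ℕ} (h : SB T V L t p q) (hcp : CS p L V) (hcq : CS q L V) : False := by
  haveI := h.Tn
  exact H39Pal.p6' (H16PalP9.p5 h) h hcp hcq

end Cfsg.Agent.Lib.H16PalP6
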