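import Cfsg.Agent.Lib.H16SD3
import Cfsg.Agent.Lib.BlkNil
import Cfsg.Agent.Lib.BlkPPower
import Cfsg.Agent.Lib.BlockKnorr2

/-!
# Nilpotency of blocks with normal defect groups (helper16)
-/

set_option autoImplicit false
set_option linter.all false

namespace Cfsg.Agent.Lib.H16SD4

open Cfsg Cfsg.Agent.Lib Cfsg.Agent.Lib.BlockRing Cfsg.Agent.Lib.BlockGA Cfsg.Agent.Lib.BlockIdem
open Cfsg.Agent.Lib.BlkIdem Cfsg.Agent.Lib.BlockAlg Cfsg.Agent.Lib.PairAlg Cfsg.Agent.Lib.PairMax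
open Cfsg.Agent.Lib.BrauerPairs Cfsg.Agent.Lib.NormalPBlk Cfsg.Agent.Lib.DefPairs
open Cfsg.Agent.Lib.InducedPair Cfsg.Agent.Lib.BlkTransport Cfsg.Agent.Lib.StabQuot
open Cfsg.Agent.Lib.BlkFus Cfsg.Agent.Lib.BlkNil Cfsg.Agent.Lib.BlkPPower Cfsg.Agent.Lib.PPart

universe u

variable {p : ℕ} [hp : Fact p.Prime] {M : Ideal AlgInt} [hMm : M.IsMaximal] [hchar : CharP (Kf M) p]
  {G : Type u} [Group G] [Finite G]

/-- the blocks covered by a block of `L` are `L`-conjugate -/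
theorem cover_conj_ne {K L : Subgroup G} (hKL : K ≤ L)
    (hN : L ≤ Subgroup.normalizer (K : Set G))
    {e e' f : MonoidAlgebra (Kf M) G} (he : IsBlk K e) (he' : IsBlk K e') (hf : IsBlk L f)
    (h1 : f * e ≠ 0) (h2 : f * e' ≠ 0) : ∃ l ∈ L, BrauerMap.cj l e = e' := by
  classical
  have := Fintype.ofFinite L
  by_contra hcon
  push Not at hcon
  set s : Finset (MonoidAlgebra (Kf M) G) := Finset.univ.image (fun l : L => BrauerMap.cj (l : G) e)
    with hs
  have hsB : ∀ g ∈ s, IsBlk K g := by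
    intro g hg
    rw [hs, Finset.mem_image] at hg
    obtain ⟨l, _, rfl⟩ := hg
    exact he.cj_normalizer (hN l.2)
  set z := ∑ g ∈ s, g with hz
  have hzg : ∀ g ∈ s, z * g = g := by
    intro g hg
    rw [hz, Finset.sum_mul, Finset.sum_eq_single g]
    · exact (hsB g hg).idem
    · intro h hh hne
      exact (hsB h hh).orth (hsB g hg) hne
    · intro h; exact absurd hg h
  have hzz : z * z = z := by
    conv_lhs => rw [hz, Finset.mul_sum]
    exact Finset.sum_congr rfl fun g hg => hzg g hg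
  have hes : e ∈ s := by
    rw [hs, Finset.mem_image]
    exact ⟨1, Finset.mem_univ _, by rw [Subgroup.coe_one, BrauerMap.cj_one]⟩
  have hzK : z ∈ BrauerMap.ZAlg (Kf M) K := Subalgebra.sum_mem _ fun g hg => (hsB g hg).mem
  have hzL : z ∈ BrauerMap.ZAlg (Kf M) L := by
    refine ⟨BrauerMap.suppAlg_mono hKL hzK.1, ?_⟩
    intro x hx
    rw [hz, map_sum]
    refine Finset.sum_nbij (fun g => BrauerMap.cj x g) ?_ ?_ ?_ (fun _ _ => rfl)
    · intro g hg
      rw [hs, Finset.mem_image] at hg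
      obtain ⟨l, _, rfl⟩ := hg
      rw [hs, Finset.mem_image]
      exact ⟨⟨x, hx⟩ * l, Finset.mem_univ _, by rw [Subgroup.coe_mul, BrauerMap.cj_mul]⟩
    · intro a _ b _ hab
      have h3 := congrArg (BrauerMap.cj x⁻¹) hab
      simp only [BrauerMap.cj_inv_cj] at h3
      exact h3
    · intro g hg
      have hg' : g ∈ s := hg
      rw [hs, Finset.mem_image] at hg'
      obtain ⟨l, _, rfl⟩ := hg'
      refine ⟨BrauerMap.cj ((⟨x, hx⟩⁻¹ * l : L) : G) e, ?_, ?_⟩
      · show _ ∈ s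
        rw [hs, Finset.mem_image]
        exact ⟨_, Finset.mem_univ _, rfl⟩
      · show BrauerMap.cj x (BrauerMap.cj ((⟨x, hx⟩⁻¹ * l : L) : G) e) = _
        rw [← BrauerMap.cj_mul]
        congr 2
        show x * (x⁻¹ * (l : G)) = l
        group
  have hze' : z * e' = 0 := by
    rw [hz, Finset.sum_mul]
    refine Finset.sum_eq_zero fun g hg => (hsB g hg).orth he' ?_
    rw [hs, Finset.mem_image] at hg
    obtain ⟨l, _, rfl⟩ := hg
    exact hcon l l.2
  have hcomm : z * f = f * z := BrauerMap.ZAlg_comm hzL hf.mem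
  rcases hf.mul_idem hzL hzz with h | h
  · apply h2
    rw [← h, hcomm, mul_assoc, hze', mul_zero]
  · apply h1
    rw [← hzg e hes, ← mul_assoc, ← hcomm, h, zero_mul]

omit hMm hchar [Finite G] hp in
theorem supp_le_of_le {k : Type*} [Field k] {Q R : Subgroup G} (h : Q ≤ R) {e : MonoidAlgebra k G}
    (he : e ∈ BrauerMap.suppAlg k (Subgroup.centralizer (R : Set G))) :
    e ∈ BrauerMap.suppAlg k (Subgroup.centralizer (Q : Set G)) :=
  BrauerMap.suppAlg_mono (Subgroup.centralizer_le h) he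

omit hMm hchar in
/-- an inclusion of pairs has nonzero product -/
theorem ple_mul_ne_zero {k : Type*} [Field k] [CharP k p] {a b : Subgroup G × MonoidAlgebra k G}
    (h : PLE p a b) (hb : BPair p b.1 b.2) : a.2 * b.2 ≠ 0 := by
  refine Relation.ReflTransGen.head_induction_on (motive := fun a _ => a.2 * b.2 ≠ 0) h ?_ ?_
  · rw [hb.2.idem]
    exact hb.2.ne_zero
  · intro a c h1 h2 ih h0
    apply ih
    have hcb : c.1 ≤ b.1 := PLE.le h2
    have hbs := supp_le_of_le hcb hb.2.mem.1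
    have hbf : b.2 ∈ BrauerMap.fixAlg k c.1 := mem_fixAlg_of_supp_centralizer hbs
    have h3 : BrauerMap.br c.1 a.2 * b.2 = 0 := by
      have h4 := BrauerMap.br_mul (p := p) h1.pairP.1 (BrauerMap.mem_fixAlg.2 h1.stab) hbf
      rw [h0] at h4
      have h5 : BrauerMap.br c.1 b.2 = b.2 := BrauerMap.trunc_eq_self hbs
      rw [h5] at h4
      rw [← h4]
      exact BrauerMap.trunc_zero _
    rw [← h1.br_mul, mul_assoc]
    have h6 : b.2 * c.2 = c.2 * b.2 := BrauerMap.comm_of_supp_fix hbs h1.pairP.2.mem.2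
    rw [← h6, ← mul_assoc, h3, zero_mul]


/-- small stabilizers make the block nilpotent -/
theorem nil_of_stab {D : Subgroup G} [hDn : D.Normal] {B e : MonoidAlgebra (Kf M) G} (hB : IsBlk ⊤ B)
    (hDe : BPair p D e) (hBe : BrauerMap.br D B * e = e) (hmax : MaxPair p D e)
    (hst : ∀ x : G, BrauerMap.cj x e = e → ∃ u ∈ D, u⁻¹ * x ∈ Subgroup.centralizer (D : Set G)) : Nil p B := by
  refine nil_of_inner hasBlocks hB hDe hBe hmax ?_
  rintro Q g ⟨f, h1, h2⟩
  have hQD : Q ≤ D := PLE.le h1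
  have h3 := ple_cg h2 g⁻¹
  simp only at h3
  have h4 : cg g⁻¹ D = D := cg_of_mem_normalizer (by rw [Subgroup.normalizer_eq_top D]; trivial)
  rw [cg_inv_cg, BrauerMap.cj_inv_cj, h4] at h3
  have hCn : (Subgroup.centralizer (D : Set G)).Normal := inferInstance
  have hDe' : BPair p D (BrauerMap.cj g⁻¹ e) := ⟨hDe.1, hDe.2.cj_normalizer (by
    rw [Subgroup.normalizer_eq_top]; trivial)⟩
  have h5 : f * e ≠ 0 := ple_mul_ne_zero h1 hDe
  have h6 : f * BrauerMap.cj g⁻¹ e ≠ 0 := ple_mul_ne_zero h3 hDe'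
  have hQf : BPair p Q f := PLE.pair h1 hDe
  obtain ⟨l, hl, hle⟩ := cover_conj_ne (Subgroup.centralizer_le hQD) (by
    rw [Subgroup.normalizer_eq_top]; exact le_top) hDe.2 hDe'.2 hQf.2 h5 h6
  have h7 : BrauerMap.cj (g * l) e = e := by
    rw [BrauerMap.cj_mul, hle, BrauerMap.cj_cj_inv]
  obtain ⟨u, hu, hux⟩ := hst _ h7
  refine ⟨u, hu, ?_⟩
  have h8 : u⁻¹ * g = (u⁻¹ * (g * l)) * l⁻¹ := by group
  rw [h8]
  exact mul_mem (Subgroup.centralizer_le hQD hux) (inv_mem hl)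

theorem stab_zpow {e : MonoidAlgebra (Kf M) G} {x : G} (h : BrauerMap.cj x e = e) (n : ℕ) :
    BrauerMap.cj (x ^ n) e = e := by
  induction n with
  | zero => rw [pow_zero, BrauerMap.cj_one]
  | succ n ih => rw [pow_succ, BrauerMap.cj_mul, h, ih]

theorem stab_of_parts {D : Subgroup G} [hDn : D.Normal] {e : MonoidAlgebra (Kf M) G}
    (hDe : BPair p D e) (hmax : MaxPair p D e)
    (hreg : ∀ x : G, ¬ p ∣ orderOf x → BrauerMap.cj x e = e → x ∈ Subgroup.centralizer (D : Set G))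
    {x : G} (hx : BrauerMap.cj x e = e) : ∃ u ∈ D, u⁻¹ * x ∈ Subgroup.centralizer (D : Set G) := by
  obtain ⟨a, b, he⟩ := exists_isRegExp p hp.1 G
  have h1 := hreg _ (he.reg x) (stab_zpow hx a)
  obtain ⟨k, hk⟩ := he.sing x
  obtain ⟨u, hu, h2⟩ := maxPair_pelement hDe hmax (g := x ^ b)
    ⟨by rw [Subgroup.normalizer_eq_top]; trivial, stab_zpow hx b⟩ ⟨k, by rw [← hk, pow_orderOf_eq_one]⟩
  refine ⟨u, hu, ?_⟩
  have h3 : u⁻¹ * x = (u⁻¹ * x ^ b) * x ^ a := by
    rw [mul_assoc, ← pow_add, add_comm, he.pow_add]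
  rw [h3]
  exact mul_mem h2 h1

theorem nil_iff_stab {D : Subgroup G} [hDn : D.Normal] {B e : MonoidAlgebra (Kf M) G} (hB : IsBlk ⊤ B)
    (hDe : BPair p D e) (hBe : BrauerMap.br D B * e = e) (hmax : MaxPair p D e) :
    Nil p B ↔ ∀ x : G, BrauerMap.cj x e = e → ∃ u ∈ D, u⁻¹ * x ∈ Subgroup.centralizer (D : Set G) := by
  refine ⟨?_, nil_of_stab hB hDe hBe hmax⟩
  intro hnil x hx
  refine stab_of_parts hDe hmax ?_ hx
  intro y hy hye
  exact hnil D e hDe hBe y ⟨by rw [Subgroup.normalizer_eq_top]; trivial, hye⟩ hy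

/-- blocks of `D C_G(D)` are blocks of `C_G(D)` -/
theorem blk_centralizer (hM : IsPModular p M) {D : Subgroup G} [hDn : D.Normal] (hD : IsPGroup p D)
    {e : MonoidAlgebra (Kf M) G} (he : IsBlk (D ⊔ Subgroup.centralizer (D : Set G)) e) :
    IsBlk (Subgroup.centralizer (D : Set G)) e := by
  set K := D ⊔ Subgroup.centralizer (D : Set G) with hK
  have hDK : D ≤ K := le_sup_left
  have hCK : Subgroup.centralizer (D : Set G) ≤ K := le_sup_right
  have hN : K ≤ Subgroup.normalizer (D : Set G) := by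
    rw [Subgroup.normalizer_eq_top]; exact le_top
  have h1 := br_eq_self_of_idem hM hDK hN hD he.mem he.idem
  have hs : e ∈ BrauerMap.suppAlg (Kf M) (Subgroup.centralizer (D : Set G)) := by
    rw [← h1]
    exact BrauerMap.trunc_mem_suppAlg _ _
  have hZ : e ∈ BrauerMap.ZAlg (Kf M) (Subgroup.centralizer (D : Set G)) :=
    ⟨hs, BrauerMap.fixAlg_anti hCK he.mem.2⟩
  obtain ⟨E, hE, hEe⟩ := exists_blk_of_idem hasBlocks hZ he.idem he.ne_zero
  have hEf : ∀ x ∈ K, BrauerMap.cj x E = E := by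
    rw [← BrauerMap.mem_fixAlg]
    have h2 : E ∈ BrauerMap.fixAlg (Kf M) D := mem_fixAlg_of_supp_centralizer hE.mem.1
    have h3 : K ≤ stab K E := sup_le (fun x hx => ⟨hDK hx, h2 x hx⟩) (fun x hx => ⟨hCK hx, hE.mem.2 x hx⟩)
    intro x hx
    exact (h3 hx).2
  have hEK := isBlk_of_centralizer hM hDK hN hCK hD hE hEf
  have h4 : e = E := by
    by_contra hne
    have h5 := he.orth hEK hne
    rw [hEe] at h5
    exact hE.ne_zero h5
  rw [h4]
  exact hE


section stabilizer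
open Cfsg.Agent.Lib.BlockCover Cfsg.Agent.Lib.BlockKnorr

theorem pair_of_cover (hM : IsPModular p M) {D : Subgroup G} [hDn : D.Normal] {B : Set (IrrCharacter G)}
    (hB : IsPBlock M B) (hD : IsDefectGroup p M B D)
    [Fintype ↥(D ⊔ Subgroup.centralizer (D : Set G))]
    {b : Set (IrrCharacter ↥(D ⊔ Subgroup.centralizer (D : Set G)))} (hb : IsPBlock M b) (hcov : Covers B b) :
    BPair p D (bid M (D ⊔ Subgroup.centralizer (D : Set G)) b) ∧
      BrauerMap.br D (bidG M B) * bid M (D ⊔ Subgroup.centralizer (D : Set G)) b =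
        bid M (D ⊔ Subgroup.centralizer (D : Set G)) b ∧
      MaxPair p D (bid M (D ⊔ Subgroup.centralizer (D : Set G)) b) := by
  have hDG := (isDefectGroup_iff hB).1 hD
  have hDp : IsPGroup p D := hDG.pg
  have hN : (⊤ : Subgroup G) ≤ Subgroup.normalizer (D : Set G) := by rw [Subgroup.normalizer_eq_top]
  have h1 : BrauerMap.br D (bidG M B) = bidG M B :=
    br_eq_self_of_idem hM le_top hN hDp (bidG_mem B) (bidG_mul_self hB)
  have hbl := blk_centralizer hM hDp (isBlk_bid hb)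
  have hne := bid_mul_ne_zero hM hb hB hcov
  have hZ : bidG M B ∈ BrauerMap.ZAlg (Kf M) (Subgroup.centralizer (D : Set G)) := by
    refine ⟨?_, BrauerMap.fixAlg_anti le_top (bidG_mem B).2⟩
    rw [← h1]
    exact BrauerMap.trunc_mem_suppAlg _ _
  have h2 : bidG M B * bid M (D ⊔ Subgroup.centralizer (D : Set G)) b =
        bid M (D ⊔ Subgroup.centralizer (D : Set G)) b :=
    (hbl.mul_idem hZ (bidG_mul_self hB)).resolve_right hne
  refine ⟨⟨hDp, hbl⟩, by rw [h1, h2], ?_⟩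
  exact Cfsg.Agent.Lib.BlkSat.maxPair_of_dg (bidG_mem B) hDG (by rw [h1, h2])

theorem cj_bid_iff {K : Subgroup G} [hKn : K.Normal] {b : Set (IrrCharacter K)} (hb : IsPBlock M b) {x : G} :
    BrauerMap.cj x (bid M K b) = bid M K b ↔ x ∈ stabT (G := G) b := by
  haveI := hMm.isPrime
  haveI := Fintype.ofFinite K
  rw [← stabilizesBlock_iff (by rw [Subgroup.normalizer_eq_top]; trivial) hb]
  exact stabilizes_iff hb

theorem nil_iff_stabT (hM : IsPModular p M) {D : Subgroup G} [hDn : D.Normal] {B : Set (IrrCharacter G)}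
    (hB : IsPBlock M B) (hD : IsDefectGroup p M B D)
    [Fintype ↥(D ⊔ Subgroup.centralizer (D : Set G))]
    {b : Set (IrrCharacter ↥(D ⊔ Subgroup.centralizer (D : Set G)))} (hb : IsPBlock M b) (hcov : Covers B b) :
    IsNilpotentBlock p M B ↔ stabT (G := G) b ≤ D ⊔ Subgroup.centralizer (D : Set G) := by
  obtain ⟨h1, h2, h3⟩ := pair_of_cover hM hB hD hb hcov
  rw [isNilpotentBlock_iff, and_iff_right hB, nil_iff_stab (isBlk_bidG hB) h1 h2 h3]
  have hiff : ∀ x : G, (∃ u ∈ D, u⁻¹ * x ∈ Subgroup.centralizer (D : Set G)) ↔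
      x ∈ D ⊔ Subgroup.centralizer (D : Set G) := by
    intro x
    rw [Subgroup.mem_sup_of_normal_left]
    constructor
    · rintro ⟨u, hu, h⟩
      exact ⟨u, hu, _, h, by group⟩
    · rintro ⟨u, hu, z, hz, rfl⟩
      exact ⟨u, hu, by rwa [inv_mul_cancel_left]⟩
  constructor
  · intro h x hx
    exact (hiff x).1 (h x ((cj_bid_iff hb).2 hx))
  · intro h x hx
    exact (hiff x).2 (h ((cj_bid_iff hb).1 hx))

/-- the `p`-elements stabilizing `b` -/
theorem pelement_mem (hM : IsPModular p M) {D : Subgroup G} [hDn : D.Normal] {B : Set (IrrCharacter G)}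
    (hB : IsPBlock M B) (hD : IsDefectGroup p M B D)
    [Fintype ↥(D ⊔ Subgroup.centralizer (D : Set G))]
    {b : Set (IrrCharacter ↥(D ⊔ Subgroup.centralizer (D : Set G)))} (hb : IsPBlock M b) (hcov : Covers B b)
    {x : G} (hx : x ∈ stabT (G := G) b) (hxp : ∃ k : ℕ, orderOf x = p ^ k) :
    x ∈ D ⊔ Subgroup.centralizer (D : Set G) := by
  obtain ⟨h1, h2, h3⟩ := pair_of_cover hM hB hD hb hcov
  obtain ⟨k, hk⟩ := hxp
  obtain ⟨u, hu, h⟩ := maxPair_pelement h1 h3 (g := x)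
    ⟨by rw [Subgroup.normalizer_eq_top]; trivial, (cj_bid_iff hb).2 hx⟩ ⟨k, by rw [← hk, pow_orderOf_eq_one]⟩
  rw [Subgroup.mem_sup_of_normal_left]
  exact ⟨u, hu, _, h, by group⟩

end stabilizer

end Cfsg.Agent.Lib.H16SD4
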