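import Cfsg.Agent.Lib.H16SD4
import Cfsg.Agent.Lib.CoprimeAction2
import Cfsg.Agent.Lib.FratFit
import Cfsg.Agent.S0968
import Cfsg.Agent.S4434
import Cfsg.Agent.S4438
import Cfsg.Agent.S4714

/-!
# Equal degrees of height zero characters and nilpotency (helper16)
-/

set_option autoImplicit false
set_option linter.all false

namespace Cfsg.Agent.Lib.H16SD5

open Cfsg Cfsg.Agent.Lib Cfsg.Agent.Lib.BlockRing Cfsg.Agent.Lib.BlockGA Cfsg.Agent.Lib.BlockIdem
open Cfsg.Agent.Lib.BlkIdem Cfsg.Agent.Lib.BlockAlg Cfsg.Agent.Lib.BlockDefect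
open Cfsg.Agent.Lib.CharBasic Cfsg.Agent.Lib.BlockDeg Cfsg.Agent.Lib.PPart
open Cfsg.Agent.Lib.Clifford Cfsg.Agent.Lib.CliffordCorr Cfsg.Agent.Lib.H16SD
open Cfsg.Agent.Lib.BlockCover Cfsg.Agent.Lib.BlockKnorr Cfsg.Agent.Lib.H16SD4

universe u

variable {G : Type u} [Group G] [Finite G] {p : ℕ} {M : Ideal AlgInt}

/-- height zero in terms of the degree -/
theorem height_zero_iff_index (hM : IsPModular p M) {B : Set (IrrCharacter G)} (hB : IsPBlock M B)
    {D : Subgroup G} (hD : IsDefectGroup p M B D) {χ : IrrCharacter G} (hχ : χ ∈ B) :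
    blockHeight p B (χ : G → ℂ) = 0 ↔
      (charDegree (χ : G → ℂ)).factorization p = D.index.factorization p := by
  rw [height_zero_iff hχ]
  have h1 := defectGroup_card hM hB hD
  obtain ⟨χ0, hχ0, h2⟩ := exists_vmin (p := p) ⟨χ, hχ⟩
  have h3 : vmin p B ≤ (Nat.card G).factorization p := by
    rw [← h2]
    exact (Nat.factorization_le_iff_dvd (charDegree_pos χ0.2).ne' Nat.card_pos.ne').2
      (charDegree_dvd_card χ0.2) p
  have h5 := congrArg (fun n => n.factorization p) D.card_mul_index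
  rw [Nat.factorization_mul Nat.card_pos.ne' Subgroup.index_ne_zero_of_finite, Finsupp.add_apply, h1,
    hM.1.factorization_pow, Finsupp.single_eq_same, BlockDefect.blockDefect_eq] at h5
  unfold vdeg
  omega

theorem commutator_eq_map (D : Subgroup G) : ⁅D, D⁆ = (commutator D).map D.subtype := by
  rw [commutator_def, Subgroup.map_commutator, ← MonoidHom.range_eq_map, Subgroup.range_subtype]

/-- a `p`-regular element acting trivially on `D/D'` centralizes `D` -/
theorem centralizes_of_comm [hp : Fact p.Prime] {D : Subgroup G} [hDn : D.Normal] (hD : IsPGroup p D) {x : G}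
    (hx : ¬ p ∣ orderOf x) (h : ∀ d ∈ D, x * d * x⁻¹ * d⁻¹ ∈ ⁅D, D⁆) :
    x ∈ Subgroup.centralizer (D : Set G) := by
  have hle : ⁅D, D⁆ ≤ (frattini D).map D.subtype := by
    rw [commutator_eq_map]
    exact Subgroup.map_mono (FratFit.commutator_le_frattini hD.isNilpotent)
  have hD'n : (⁅D, D⁆ : Subgroup G).Normal := inferInstance
  have key : Subgroup.zpowers x ≤ Subgroup.centralizer (D : Set G) := by
    apply CoprimeAction2.le_centralizer_of_frattini
    · rw [Subgroup.normalizer_eq_top]; exact le_top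
    · rw [Nat.card_zpowers]
      have h1 : IsPGroup p (frattini D) := hD.to_subgroup _
      obtain ⟨n, hn⟩ := IsPGroup.iff_card.1 h1
      rw [hn]
      exact (Nat.Coprime.pow_left n ((Nat.Prime.coprime_iff_not_dvd hp.out).mpr hx)).symm
    · intro a ha k hk
      apply hle
      -- the elements acting trivially modulo `D'` form a subgroup
      let T : Subgroup G := 
        { carrier := {y | ∀ d ∈ D, y * d * y⁻¹ * d⁻¹ ∈ ⁅D, D⁆}
          one_mem' := by
            intro d hd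
            simp
          mul_mem' := by
            intro a b ha hb d hd
            have h1 := ha (b * d * b⁻¹) (hDn.conj_mem d hd b)
            have h2 := hb d hd
            have e1 : a * b * d * (a * b)⁻¹ * d⁻¹ = (a * (b * d * b⁻¹) * a⁻¹ * (b * d * b⁻¹)⁻¹) * (b * d * b⁻¹ * d⁻¹) := by
              group
            rw [e1]
            exact mul_mem h1 h2
          inv_mem' := by
            intro a ha d hd
            have h1 := ha (a⁻¹ * d * a) (by simpa using hDn.conj_mem d hd a⁻¹)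
            have e1 : a⁻¹ * d * a⁻¹⁻¹ * d⁻¹ = (a * (a⁻¹ * d * a) * a⁻¹ * (a⁻¹ * d * a)⁻¹)⁻¹ := by group
            rw [e1]
            exact inv_mem h1 }
      have hxT : Subgroup.zpowers x ≤ T := by
        rw [Subgroup.zpowers_le]
        exact h
      exact hxT ha k hk
  exact key (Subgroup.mem_zpowers x)


section blk
variable [hp : Fact p.Prime] [hMm : M.IsMaximal] [hchar : CharP (Kf M) p]

/-- the defect group of a covered block of a subgroup containing `D` -/
theorem defect_sub (hM : IsPModular p M) {D : Subgroup G} [hDn : D.Normal] {B : Set (IrrCharacter G)}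
    (hB : IsPBlock M B) (hD : IsDefectGroup p M B D) {K : Subgroup G} [hKn : K.Normal] [Fintype K] (hDK : D ≤ K)
    {b : Set (IrrCharacter K)} (hb : IsPBlock M b) (hcov : Covers B b) :
    IsDefectGroup p M b (D.subgroupOf K) := by
  haveI := Fintype.ofFinite G
  obtain ⟨E, hE⟩ := exists_defectGroup hM hb
  have hQ : (E.map K.subtype).subgroupOf K = E := by
    rw [Subgroup.subgroupOf, Subgroup.comap_map_eq_self_of_injective K.subtype_injective]
  obtain ⟨P, hP, hPK⟩ := Cfsg.Agent.S4438.result p M hM K b hb (E.map K.subtype) (Subgroup.map_subtype_le E)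
    (by rw [hQ]; exact hE) B hB hcov
  obtain ⟨x, hx⟩ := defectGroup_conj hM hB hD hP
  have h1 : P = D := by
    rw [hx]
    ext y
    rw [BlockDefect.mem_map_conj]
    constructor
    · intro h
      have := hDn.conj_mem _ h x
      have e1 : x * (x⁻¹ * y * x) * x⁻¹ = y := by group
      rwa [e1] at this
    · intro h
      have := hDn.conj_mem _ h x⁻¹
      rwa [inv_inv] at this
  have h2 : E.map K.subtype = D := by
    rw [← hPK, h1, inf_eq_left]
    exact hDK
  have h3 : D.subgroupOf K = E := by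
    rw [← h2, hQ]
  rw [h3]
  exact hE

theorem sup_centralizer_eq_top (D : Subgroup G) :
    D.subgroupOf (D ⊔ Subgroup.centralizer (D : Set G)) ⊔
      Subgroup.centralizer ((D.subgroupOf (D ⊔ Subgroup.centralizer (D : Set G)) :
        Subgroup ↥(D ⊔ Subgroup.centralizer (D : Set G))) : Set ↥(D ⊔ Subgroup.centralizer (D : Set G))) = ⊤ := by
  set K := D ⊔ Subgroup.centralizer (D : Set G) with hK
  have hDK : D ≤ K := le_sup_left
  have hCK : Subgroup.centralizer (D : Set G) ≤ K := le_sup_right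
  rw [eq_top_iff]
  have h1 : (D ⊔ Subgroup.centralizer (D : Set G)).subgroupOf K ≤ D.subgroupOf K ⊔
      Subgroup.centralizer ((D.subgroupOf K : Subgroup K) : Set K) := by
    rw [Subgroup.subgroupOf_sup hDK hCK]
    apply sup_le le_sup_left
    refine le_trans ?_ le_sup_right
    intro y hy
    rw [Subgroup.mem_centralizer_iff]
    intro d hd
    exact Subtype.ext (Subgroup.mem_centralizer_iff.1 hy d hd)
  intro y _
  exact h1 y.2

/-- height zero characters of a nilpotent block with normal defect group have the same degree -/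
theorem degrees_of_nil (hM : IsPModular p M) {D : Subgroup G} [hDn : D.Normal] {B : Set (IrrCharacter G)}
    (hB : IsPBlock M B) (hD : IsDefectGroup p M B D) (hnil : IsNilpotentBlock p M B) :
    ∃ d : ℕ, ∀ χ : IrrCharacter G, χ ∈ B → blockHeight p B (χ : G → ℂ) = 0 → charDegree (χ : G → ℂ) = d := by
  classical
  haveI := hMm.isPrime
  haveI := Fintype.ofFinite G
  have hDp : IsPGroup p D := ((BrauerPairs.isDefectGroup_iff hB).1 hD).pg
  haveI : Fintype ↥(D ⊔ Subgroup.centralizer (D : Set G)) := Fintype.ofFinite _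
  obtain ⟨χ0, hχ0⟩ := isPBlock_nonempty hB
  obtain ⟨θ1, hθ1⟩ := exists_constituent_res (D ⊔ Subgroup.centralizer (D : Set G)) χ0
  have hb : IsPBlock M (blockOf M (θ1 : ↥(D ⊔ Subgroup.centralizer (D : Set G)) → ℂ)) := isPBlock_blockOf θ1
  have hcov : Covers B (blockOf M (θ1 : ↥(D ⊔ Subgroup.centralizer (D : Set G)) → ℂ)) :=
    ⟨χ0, hχ0, θ1, mem_blockOf_self θ1, hθ1⟩
  have hst := (nil_iff_stabT hM hB hD hb hcov).1 hnil
  have hdef := defect_sub hM hB hD le_sup_left hb hcov
  have htop := sup_centralizer_eq_top D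
  clear hχ0 hθ1
  revert hb hcov hst hdef htop
  generalize blockOf M (θ1 : ↥(D ⊔ Subgroup.centralizer (D : Set G)) → ℂ) = b
  clear θ1
  intro hb hcov hst hdef htop
  have hDK : D ≤ D ⊔ Subgroup.centralizer (D : Set G) := le_sup_left
  have hDKp : IsPGroup p (D.subgroupOf (D ⊔ Subgroup.centralizer (D : Set G))) :=
    hDp.of_equiv (subEquiv D _ hDK).symm
  obtain ⟨⟨θc, ⟨hθc, hθck⟩, -⟩, hν, -⟩ := Cfsg.Agent.S0968.result p M hM _ hDKp htop b hb hdef
  have hνc := hν θc hθc hθck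
  refine ⟨(D ⊔ Subgroup.centralizer (D : Set G)).index *
    charDegree (θc : ↥(D ⊔ Subgroup.centralizer (D : Set G)) → ℂ), ?_⟩
  intro χ hχ h0
  obtain ⟨η, hη, hχη⟩ := covers_all hB (unionOfBlocks_of_isPBlock hb) hcov hχ
  have hT : ∀ g : G, g ∈ D ⊔ Subgroup.centralizer (D : Set G) ↔
      cj (D ⊔ Subgroup.centralizer (D : Set G)) g (η : ↥(D ⊔ Subgroup.centralizer (D : Set G)) → ℂ) = η := by
    intro g
    constructor
    · intro h
      exact cj_of_mem η.2.isClassFunction h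
    · intro h
      apply hst
      have h1 : cjEquiv g η = η := Subtype.ext h
      exact mem_of_sameBlock_cj hb hη (by rw [h1]; exact hη)
  obtain ⟨ψ, hψ, hind, hmult⟩ := corr_surj (le_refl _) η.2 hT χ.2 hχη
  have h2 : ψ = (η : ↥(D ⊔ Subgroup.centralizer (D : Set G)) → ℂ) := by
    by_contra hne
    apply hχη
    rw [← hmult]
    exact hψ.classInner_eq_zero η.2 hne
  have h3 := IndFun.indFun_one (D ⊔ Subgroup.centralizer (D : Set G)) ψ
  rw [hind, h2, ← charDegree_cast_irr, ← charDegree_cast_irr] at h3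
  obtain ⟨h4, -⟩ := Cfsg.Agent.S4714.result p M hM _ hDKp htop b hb hdef θc hθc hθck
  obtain ⟨ζ, h5, -⟩ := (h4 η).1 hη
  have h6 := h5 1 1 (by rw [orderOf_one]; exact hM.1.not_dvd_one) (Commute.one_right _)
  rw [Subgroup.coe_one, mul_one, ← charDegree_cast_irr, ← charDegree_cast_irr, ← charDegree_cast_irr] at h6
  have h7 : charDegree (η : ↥(D ⊔ Subgroup.centralizer (D : Set G)) → ℂ) =
      charDegree (ζ : ↥(D.subgroupOf (D ⊔ Subgroup.centralizer (D : Set G))) → ℂ) *
        charDegree (θc : ↥(D ⊔ Subgroup.centralizer (D : Set G)) → ℂ) := by exact_mod_cast h6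
  have h8 : charDegree (χ : G → ℂ) = (D ⊔ Subgroup.centralizer (D : Set G)).index *
      charDegree (η : ↥(D ⊔ Subgroup.centralizer (D : Set G)) → ℂ) := by exact_mod_cast h3
  have h9 := (height_zero_iff_index hM hB hD hχ).1 h0
  have h10 : D.index = (D.subgroupOf (D ⊔ Subgroup.centralizer (D : Set G))).index *
      (D ⊔ Subgroup.centralizer (D : Set G)).index := (Subgroup.relIndex_mul_index hDK).symm
  have hζ0 := (charDegree_pos ζ.2).ne'
  have hθ0 := (charDegree_pos θc.2).ne'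
  have hi0 : (D ⊔ Subgroup.centralizer (D : Set G)).index ≠ 0 := Subgroup.index_ne_zero_of_finite
  have hi1 : (D.subgroupOf (D ⊔ Subgroup.centralizer (D : Set G))).index ≠ 0 := Subgroup.index_ne_zero_of_finite
  rw [h8, h7, h10, Nat.factorization_mul hi0 (Nat.mul_ne_zero hζ0 hθ0), Nat.factorization_mul hζ0 hθ0,
    Nat.factorization_mul hi1 hi0] at h9
  simp only [Finsupp.add_apply] at h9
  rw [hνc] at h9
  have h11 : (charDegree (ζ : ↥(D.subgroupOf (D ⊔ Subgroup.centralizer (D : Set G))) → ℂ)).factorization p = 0 := by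
    omega
  have h12 : charDegree (ζ : ↥(D.subgroupOf (D ⊔ Subgroup.centralizer (D : Set G))) → ℂ) = 1 := by
    obtain ⟨n, hn⟩ := IsPGroup.iff_card.1 hDKp
    have h13 := charDegree_dvd_card ζ.2
    rw [hn] at h13
    obtain ⟨j, -, hj⟩ := (Nat.dvd_prime_pow hM.1).1 h13
    rw [hj, hM.1.factorization_pow, Finsupp.single_eq_same] at h11
    rw [hj, h11, pow_zero]
  rw [h8, h7, h12, one_mul]

end blk

/-! ### quotients -/

section quot
variable {N : Subgroup G} [hNn : N.Normal]

/-- the homomorphism onto the image of a subgroup -/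
def toMap (N : Subgroup G) [N.Normal] (K : Subgroup G) : K →* K.map (QuotientGroup.mk' N) where
  toFun k := ⟨QuotientGroup.mk' N k, ⟨k, k.2, rfl⟩⟩
  map_one' := Subtype.ext rfl
  map_mul' _ _ := Subtype.ext rfl

theorem toMap_surjective (N : Subgroup G) [N.Normal] (K : Subgroup G) : Function.Surjective (toMap N K) := by
  rintro ⟨_, k, hk, rfl⟩
  exact ⟨⟨k, hk⟩, rfl⟩

theorem toMap_coe (N : Subgroup G) [N.Normal] (K : Subgroup G) (k : K) :
    ((toMap N K k : K.map (QuotientGroup.mk' N)) : G ⧸ N) = ((k : G) : G ⧸ N) := rfl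

theorem lift_reg {e f : ℕ} (he : IsRegExp p G e f) (hp : p.Prime) {g : G}
    (h : ¬ p ∣ orderOf (g : G ⧸ N)) : ((g ^ e : G) : G ⧸ N) = (g : G ⧸ N) := by
  have h1 : ((g ^ f : G) : G ⧸ N) = 1 := by
    obtain ⟨k, hk⟩ := he.sing g
    have h2 : orderOf ((g ^ f : G) : G ⧸ N) ∣ p ^ k := by
      rw [← hk]
      exact orderOf_map_dvd (QuotientGroup.mk' N) (g ^ f)
    have h3 : orderOf ((g ^ f : G) : G ⧸ N) ∣ orderOf (g : G ⧸ N) := by
      rw [QuotientGroup.mk_pow]
      exact orderOf_pow_dvd f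
    have h4 : (p ^ k).Coprime (orderOf (g : G ⧸ N)) :=
      Nat.Coprime.pow_left k ((Nat.Prime.coprime_iff_not_dvd hp).mpr h)
    exact orderOf_eq_one_iff.1 (Nat.eq_one_of_dvd_coprimes h4 h2 h3)
  have h5 : (g : G ⧸ N) = ((g ^ e : G) : G ⧸ N) * ((g ^ f : G) : G ⧸ N) := by
    rw [← QuotientGroup.mk_mul, he.mul_eq]
  rw [h1, mul_one] at h5
  exact h5.symm

theorem lift_sing {e f : ℕ} (he : IsRegExp p G e f) (hp : p.Prime) {g : G} {j : ℕ}
    (h : orderOf (g : G ⧸ N) = p ^ j) : ((g ^ f : G) : G ⧸ N) = (g : G ⧸ N) := by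
  have h1 : ((g ^ e : G) : G ⧸ N) = 1 := by
    have h2 : orderOf ((g ^ e : G) : G ⧸ N) ∣ orderOf (g ^ e) :=
      orderOf_map_dvd (QuotientGroup.mk' N) (g ^ e)
    have h3 : orderOf ((g ^ e : G) : G ⧸ N) ∣ p ^ j := by
      rw [← h, QuotientGroup.mk_pow]
      exact orderOf_pow_dvd e
    have h4 : (p ^ j).Coprime (orderOf (g ^ e)) :=
      Nat.Coprime.pow_left j ((Nat.Prime.coprime_iff_not_dvd hp).mpr (he.reg g))
    exact orderOf_eq_one_iff.1 (Nat.eq_one_of_dvd_coprimes h4 h3 h2)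
  have h5 : (g : G ⧸ N) = ((g ^ e : G) : G ⧸ N) * ((g ^ f : G) : G ⧸ N) := by
    rw [← QuotientGroup.mk_mul, he.mul_eq]
  rw [h1, one_mul] at h5
  exact h5.symm

/-- the inflation of a constituent is a constituent of the inflation -/
theorem inner_inflate {K : Subgroup G} [Fintype K] [Fintype (K.map (QuotientGroup.mk' N))] {ρ : (G ⧸ N) → ℂ}
    (hρ : IsCharacter (G ⧸ N) ρ) {θ : K.map (QuotientGroup.mk' N) → ℂ} (hθ : IsIrrCharacter _ θ)
    (h : classInner (fun k : K.map (QuotientGroup.mk' N) => ρ k) θ ≠ 0) :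
    IsIrrCharacter K (fun k => θ (toMap N K k)) ∧
      classInner (fun k : K => ρ ((k : G) : G ⧸ N)) (fun k => θ (toMap N K k)) ≠ 0 := by
  have h0 : IsIrrCharacter K (fun k => θ (toMap N K k)) := hθ.comp_surjective _ (toMap_surjective N K)
  refine ⟨h0, ?_⟩
  obtain ⟨b, hb, h1⟩ := Clifford.degree_le_of_constituent (hρ.restrict _) hθ h
  have h2 : (fun k : K => ρ ((k : G) : G ⧸ N)) = (fun k => θ (toMap N K k)) + fun k => b (toMap N K k) := by
    funext k
    exact congrFun h1 (toMap N K k)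
  have h3 : IsCharacter K (fun k => b (toMap N K k)) := hb.comp (toMap N K)
  obtain ⟨n, hn⟩ := h3.classInner_nat h0.isCharacter
  rw [h2, classInner_add_left, h0.classInner_self, hn]
  intro h4
  have h5 : ((1 + n : ℕ) : ℂ) = 0 := by
    push_cast
    exact h4
  have h6 : 1 + n = 0 := by exact_mod_cast h5
  omega

/-- stabilizers of inflated characters -/
theorem cj_inflate_iff {K : Subgroup G} [hKn : K.Normal] [hK1 : (K.map (QuotientGroup.mk' N)).Normal]
    {θ : K.map (QuotientGroup.mk' N) → ℂ} {x : G} :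
    cj (K.map (QuotientGroup.mk' N)) (x : G ⧸ N) θ = θ ↔
      cj K x (fun k => θ (toMap N K k)) = fun k => θ (toMap N K k) := by
  constructor
  · intro h
    funext k
    rw [cj_apply]
    exact congrFun h (toMap N K k)
  · intro h
    funext k
    obtain ⟨k, rfl⟩ := toMap_surjective N K k
    rw [cj_apply]
    exact congrFun h k

end quot

section main
variable [hp : Fact p.Prime] [hMm : M.IsMaximal] [hchar : CharP (Kf M) p]

/-- the condition on the degrees forces nilpotency -/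
theorem nil_of_degrees (hM : IsPModular p M) {D : Subgroup G} [hDn : D.Normal] {B : Set (IrrCharacter G)}
    (hB : IsPBlock M B) (hD : IsDefectGroup p M B D) {d : ℕ}
    (hd : ∀ χ : IrrCharacter G, χ ∈ B → blockHeight p B (χ : G → ℂ) = 0 → charDegree (χ : G → ℂ) = d) :
    IsNilpotentBlock p M B := by
  classical
  haveI := hMm.isPrime
  haveI := Fintype.ofFinite G
  have hDp : IsPGroup p D := ((BrauerPairs.isDefectGroup_iff hB).1 hD).pg
  set N : Subgroup G := ⁅D, D⁆ with hN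
  haveI hNn : N.Normal := by rw [hN]; infer_instance
  have hND : N ≤ D := by
    rw [hN]
    exact Subgroup.commutator_le_left D D
  have hNp : IsPGroup p N := hDp.to_le hND
  obtain ⟨B1, hB1, hinfl, hdef1⟩ := Cfsg.Agent.S4434.result p M hM N hNp B hB
  set V : Subgroup (G ⧸ N) := D.map (QuotientGroup.mk' N) with hVdef
  haveI hVn : V.Normal := Subgroup.Normal.map hDn _ (QuotientGroup.mk'_surjective N)
  have hDV : IsDefectGroup p M B1 V := (hdef1 V).2 ⟨D, hD, rfl⟩
  have hVp : IsPGroup p V := hDp.map _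
  have hab : ∀ a ∈ V, ∀ b ∈ V, a * b = b * a := by
    rintro _ ⟨a, ha, rfl⟩ _ ⟨b, hb, rfl⟩
    show (a : G ⧸ N) * (b : G ⧸ N) = (b : G ⧸ N) * (a : G ⧸ N)
    rw [← QuotientGroup.mk_mul, ← QuotientGroup.mk_mul, eq_comm, QuotientGroup.eq]
    have e1 : (b * a)⁻¹ * (a * b) = a⁻¹ * b⁻¹ * a⁻¹⁻¹ * b⁻¹⁻¹ := by group
    rw [e1]
    exact Subgroup.commutator_mem_commutator (D.inv_mem ha) (D.inv_mem hb)
  have hVidx : V.index = D.index :=
    Subgroup.index_map_eq D (QuotientGroup.mk'_surjective N) (by rw [QuotientGroup.ker_mk']; exact hND)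
  have hdeg1 : ∀ χ ∈ B1, charDegree (χ : G ⧸ N → ℂ) = d := by
    intro χ hχ
    have h1 := degree_val hM hab hB1 hDV hχ
    have h2 := hinfl χ hχ ⟨fun g => (χ : G ⧸ N → ℂ) (g : G ⧸ N), χ.2.inflate N⟩ rfl
    have h3 : charDegree (fun g : G => (χ : G ⧸ N → ℂ) (g : G ⧸ N)) = charDegree (χ : G ⧸ N → ℂ) := rfl
    rw [← h3]
    refine hd _ h2 ((height_zero_iff_index hM hB hD h2).2 ?_)
    show (charDegree (fun g : G => (χ : G ⧸ N → ℂ) (g : G ⧸ N))).factorization p = _
    rw [h3, h1, hVidx]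
  -- the subgroup `D C(D)`
  obtain ⟨K, hKdef⟩ : ∃ K, K = D ⊔ Subgroup.centralizer (D : Set G) := ⟨_, rfl⟩
  have hDK : D ≤ K := by rw [hKdef]; exact le_sup_left
  have hCK : Subgroup.centralizer (D : Set G) ≤ K := by rw [hKdef]; exact le_sup_right
  haveI hKn : K.Normal := by rw [hKdef]; infer_instance
  set K1 : Subgroup (G ⧸ N) := K.map (QuotientGroup.mk' N) with hK1def
  haveI hK1n : K1.Normal := Subgroup.Normal.map hKn _ (QuotientGroup.mk'_surjective N)
  have hVK : V ≤ K1 := Subgroup.map_mono hDK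
  have hVC : ∀ v ∈ V, ∀ x ∈ K1, v * x = x * v := by
    rintro _ ⟨a, ha, rfl⟩ _ ⟨y, hy, rfl⟩
    have hy' : y ∈ D ⊔ Subgroup.centralizer (D : Set G) := by rw [← hKdef]; exact hy
    rw [Subgroup.mem_sup_of_normal_left] at hy'
    obtain ⟨u, hu, z, hz, rfl⟩ := hy'
    have h1 := hab _ ⟨a, ha, rfl⟩ _ ⟨u, hu, rfl⟩
    have h2 : a * z = z * a := Subgroup.mem_centralizer_iff.1 hz a ha
    rw [map_mul, ← mul_assoc, h1, mul_assoc, ← map_mul, h2, map_mul, mul_assoc]
  obtain ⟨e, f, he⟩ := exists_isRegExp p hM.1 G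
  have hcent : ∀ y : G, ¬ p ∣ orderOf y → (∀ v ∈ V, v * (y : G ⧸ N) = (y : G ⧸ N) * v) →
      y ∈ Subgroup.centralizer (D : Set G) := by
    intro y hy h
    refine centralizes_of_comm hDp hy ?_
    intro a ha
    have h1 := h _ ⟨a, ha, rfl⟩
    have h2 : (a : G ⧸ N) * (y : G ⧸ N) = (y : G ⧸ N) * (a : G ⧸ N) := h1
    have h3 : ((y * a * y⁻¹ * a⁻¹ : G) : G ⧸ N) = 1 := by
      rw [QuotientGroup.mk_mul, QuotientGroup.mk_mul, QuotientGroup.mk_mul, ← h2, QuotientGroup.mk_inv,
        QuotientGroup.mk_inv, mul_inv_cancel_right, mul_inv_cancel]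
    exact (QuotientGroup.eq_one_iff _).1 h3
  have hreg : ∀ x : G ⧸ N, ¬ p ∣ orderOf x → (∀ v ∈ V, v * x = x * v) → x ∈ K1 := by
    intro x hx h
    obtain ⟨y, rfl⟩ := QuotientGroup.mk_surjective x
    have h1 := lift_reg he hM.1 hx
    have h2 := hcent (y ^ e) (he.reg y) (by rw [h1]; exact h)
    exact ⟨y ^ e, hCK h2, h1⟩
  obtain ⟨ρ, hρ, hρV, hcore⟩ := H16SD3.core hM hVp hVK hVC hreg hB1 hDV hdeg1
  haveI : Fintype K1 := Fintype.ofFinite _
  haveI : Fintype K := Fintype.ofFinite _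
  obtain ⟨θ, hθ⟩ := exists_constituent_res K1 ρ
  obtain ⟨hθ0, hne⟩ := inner_inflate (N := N) (K := K) ρ.2.isCharacter θ.2 hθ
  set θ0 : IrrCharacter K := ⟨fun k => (θ : K1 → ℂ) (toMap N K k), hθ0⟩ with hθ0def
  set ρ0 : IrrCharacter G := ⟨fun g => (ρ : G ⧸ N → ℂ) (g : G ⧸ N), ρ.2.inflate N⟩ with hρ0def
  have hρ0 : ρ0 ∈ B := hinfl ρ hρ ρ0 rfl
  obtain ⟨b, hbdef⟩ : ∃ b, b = blockOf M (θ0 : K → ℂ) := ⟨_, rfl⟩
  have hb : IsPBlock M b := by rw [hbdef]; exact isPBlock_blockOf θ0
  have hθ0b : θ0 ∈ b := by rw [hbdef]; exact mem_blockOf_self θ0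
  have hcov : Covers B b := ⟨ρ0, hρ0, θ0, hθ0b, hne⟩
  have hdef := defect_sub hM hB hD hDK hb hcov
  have hθk : ∀ x ∈ D.subgroupOf K, (θ0 : K → ℂ) x = (θ0 : K → ℂ) 1 := by
    intro x hx
    have hx1 : toMap N K x ∈ V.subgroupOf K1 := ⟨x, hx, rfl⟩
    have h1 := Garrison.ker_constituent (a := fun k : K1 => (ρ : G ⧸ N → ℂ) k) (ρ.2.isCharacter.restrict K1)
      θ.2 hθ (x := toMap N K x) (hρV _ hx1)
    show (θ : K1 → ℂ) (toMap N K x) = (θ : K1 → ℂ) (toMap N K 1)
    rw [h1, map_one]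
  have hDKp : IsPGroup p (D.subgroupOf K) := hDp.of_equiv (subEquiv D K hDK).symm
  have htop : D.subgroupOf K ⊔ Subgroup.centralizer ((D.subgroupOf K : Subgroup K) : Set K) = ⊤ := by
    have h1 := sup_centralizer_eq_top D
    rw [← hKdef] at h1
    exact h1
  obtain ⟨⟨θ', -, huniq⟩, -, -⟩ := Cfsg.Agent.S0968.result p M hM _ hDKp htop b hb hdef
  -- the two stabilizers
  have hstab : ∀ x : G, x ∈ stabT (G := G) b ↔ ((x : G) : G ⧸ N) ∈ inertia K1 (θ : K1 → ℂ) := by
    intro x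
    rw [mem_inertia, cj_inflate_iff]
    constructor
    · intro hx
      have h1 : cjEquiv x θ0 ∈ b := (hx θ0).1 hθ0b
      have h2 := huniq (cjEquiv x θ0) ⟨h1, ?_⟩
      · have h3 := huniq θ0 ⟨hθ0b, hθk⟩
        exact congrArg Subtype.val (h2.trans h3.symm)
      · intro y hy
        have h4 : (⟨x * (y : G) * x⁻¹, hKn.conj_mem y y.2 x⟩ : K) ∈ D.subgroupOf K := hDn.conj_mem _ hy x
        show (θ0 : K → ℂ) ⟨x * (y : G) * x⁻¹, _⟩ = (θ0 : K → ℂ) ⟨x * ((1 : K) : G) * x⁻¹, _⟩
        rw [hθk _ h4]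
        refine congrArg (θ0 : K → ℂ) (Subtype.ext ?_)
        simp
    · intro hx
      have h1 : cjEquiv x θ0 = θ0 := Subtype.ext hx
      exact mem_of_sameBlock_cj hb hθ0b (by rw [h1]; exact hθ0b)
  have hpel : ∀ x : G, x ∈ stabT (G := G) b → (∃ k : ℕ, orderOf x = p ^ k) → x ∈ K := by
    subst hKdef
    intro x hx hxk
    exact pelement_mem hM hB hD hb hcov hx hxk
  have hgoal : IsNilpotentBlock p M B ↔ stabT (G := G) b ≤ K := by
    subst hKdef
    exact nil_iff_stabT hM hB hD hb hcov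
  -- the inertia group
  have hT : (Nat.card (inertia K1 (θ : K1 → ℂ))).factorization p = (Nat.card K1).factorization p := by
    apply le_antisymm
    · obtain ⟨S⟩ : Nonempty (Sylow p (inertia K1 (θ : K1 → ℂ))) := inferInstance
      have h1 : (S : Subgroup (inertia K1 (θ : K1 → ℂ))).map (inertia K1 (θ : K1 → ℂ)).subtype ≤ K1 := by
        rintro _ ⟨s, hs, rfl⟩
        obtain ⟨j, hj⟩ := (IsPGroup.iff_orderOf.1 S.2) ⟨s, hs⟩
        obtain ⟨y, hy⟩ := QuotientGroup.mk_surjective ((s : inertia K1 (θ : K1 → ℂ)) : G ⧸ N)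
        have h2 : orderOf (y : G ⧸ N) = p ^ j := by
          rw [hy, ← hj]
          exact (Subgroup.orderOf_coe s).trans
            (Subgroup.orderOf_coe (⟨s, hs⟩ : (S : Subgroup (inertia K1 (θ : K1 → ℂ)))))
        have h3 := lift_sing he hM.1 h2
        have h4 : y ∈ stabT (G := G) b := (hstab y).2 (by rw [hy]; exact s.2)
        have h5 := hpel _ ((stabT (G := G) b).pow_mem h4 f) (he.sing y)
        exact ⟨y ^ f, h5, h3.trans hy⟩
      have h2 := Subgroup.card_dvd_of_le h1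
      rw [Subgroup.card_map_of_injective (Subgroup.subtype_injective _), S.card_eq_multiplicity] at h2
      exact (hM.1.pow_dvd_iff_le_factorization Nat.card_pos.ne').1 h2
    · exact (Nat.factorization_le_iff_dvd Nat.card_pos.ne' Nat.card_pos.ne').2
        (Subgroup.card_dvd_of_le (le_inertia θ.2.isClassFunction)) p
  have hfin := hcore inferInstance (θ : K1 → ℂ) θ.2 hθ hT
  rw [hgoal]
  intro x hx
  have h1 := hpel _ ((stabT (G := G) b).pow_mem hx f) (he.sing x)
  have h2 := (stabT (G := G) b).pow_mem hx e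
  have h3 := hfin _ ((hstab _).1 h2)
  have h4 := hcent _ (he.reg x) h3
  rw [← he.mul_eq x]
  exact K.mul_mem (hCK h4) h1

end main

end Cfsg.Agent.Lib.H16SD5
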