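import Mathlib
import Cfsg.Prelude.Def_Transfer
import Cfsg.Agent.Lib.TransferApps

/-!
# Groups with an extraspecial Sylow 3-subgroup of order 27 and exponent 3: fusion (helper16)
-/

set_option autoImplicit false
set_option linter.all false

namespace Cfsg.Agent.Lib.H16XA

open Cfsg

variable {G : Type*} [Group G]

/-- `P` is extraspecial of order 27 and exponent 3 with centre `⟨z⟩` centralized by `N(P)`. -/
structure XD (P : Sylow 3 G) (z : G) : Prop where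
  card : Nat.card (P : Subgroup G) = 27
  exp : ∀ x ∈ (P : Subgroup G), x ^ 3 = 1
  zP : z ∈ (P : Subgroup G)
  z1 : z ≠ 1
  cen : ∀ y ∈ (P : Subgroup G), z * y = y * z
  cenZ : ∀ x ∈ (P : Subgroup G), (∀ y ∈ (P : Subgroup G), x * y = y * x) → x ∈ Subgroup.zpowers z
  comm : ∀ x ∈ (P : Subgroup G), ∀ y ∈ (P : Subgroup G), x * y * x⁻¹ * y⁻¹ ∈ Subgroup.zpowers z
  nc : ∀ g ∈ Subgroup.normalizer ((P : Subgroup G) : Set G), g * z = z * g

/-- two Sylow subgroups inside a subgroup are conjugate in it -/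
theorem conj_in [Finite G] (P Q : Sylow 3 G) {K : Subgroup G} (hP : (P : Subgroup G) ≤ K)
    (hQ : (Q : Subgroup G) ≤ K) : ∃ k ∈ K, ∀ x, x ∈ (Q : Subgroup G) → k * x * k⁻¹ ∈ (P : Subgroup G) := by
  obtain ⟨k, hk⟩ := MulAction.exists_smul_eq K (Q.subtype hQ) (P.subtype hP)
  refine ⟨k, k.2, fun x hx => ?_⟩
  have h1 : (⟨x, hQ hx⟩ : K) ∈ (Q.subtype hQ : Subgroup K) := hx
  have h2 : k * ⟨x, hQ hx⟩ * k⁻¹ ∈ (P.subtype hP : Subgroup K) := by
    rw [← hk, Sylow.coe_subgroup_smul]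
    exact ⟨_, h1, rfl⟩
  exact h2

/-- an element conjugating a finite subgroup into itself normalizes it -/
theorem mem_normalizer_of_le [Finite G] (P : Subgroup G) {g : G} (h : ∀ x ∈ P, g * x * g⁻¹ ∈ P) :
    g ∈ Subgroup.normalizer (P : Set G) := by
  have h1 : P.map (MulAut.conj g).toMonoidHom ≤ P := by
    rintro _ ⟨x, hx, rfl⟩
    exact h x hx
  have h2 : P.map (MulAut.conj g).toMonoidHom = P := by
    apply Subgroup.eq_of_le_of_card_ge h1
    rw [Subgroup.card_map_of_injective (MulAut.conj g).injective]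
  rw [Subgroup.mem_normalizer_iff]
  intro x
  constructor
  · exact h x
  · intro hx
    have h3 : g * x * g⁻¹ ∈ P.map (MulAut.conj g).toMonoidHom := by rw [h2]; exact hx
    obtain ⟨y, hy, hyx⟩ := h3
    have : y = x := by
      have h4 : g * y * g⁻¹ = g * x * g⁻¹ := hyx
      simpa using h4
    rw [← this]; exact hy

section

variable [Finite G] {P : Sylow 3 G} {z : G} (h : XD P z)
include h

omit [Finite G] in
theorem XD.z3 : z ^ 3 = 1 := h.exp z h.zP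

omit [Finite G] in
theorem XD.ordz : orderOf z = 3 := by
  haveI : Fact (Nat.Prime 3) := ⟨Nat.prime_three⟩
  exact orderOf_eq_prime h.z3 h.z1

omit [Finite G] in
theorem XD.mem_zp {x : G} : x ∈ Subgroup.zpowers z ↔ x = 1 ∨ x = z ∨ x = z⁻¹ := by
  constructor
  · rintro ⟨k, rfl⟩
    have h1 : z ^ k = z ^ (k % 3) := by
      rw [← zpow_mod_orderOf, h.ordz]; rfl
    simp only at h1 ⊢
    rw [h1]
    have h2 : k % 3 = 0 ∨ k % 3 = 1 ∨ k % 3 = 2 := by omega
    rcases h2 with h2 | h2 | h2 <;> rw [h2]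
    · left; simp
    · right; left; simp
    · right; right
      rw [eq_inv_iff_mul_eq_one]
      have := h.z3
      rw [show (2 : ℤ) = ((2 : ℕ) : ℤ) from rfl, zpow_natCast, ← pow_succ]
      exact this
  · rintro (rfl | rfl | rfl)
    · exact Subgroup.one_mem _
    · exact Subgroup.mem_zpowers _
    · exact (Subgroup.zpowers z).inv_mem (Subgroup.mem_zpowers _)

omit [Finite G] in
theorem XD.zp_le : Subgroup.zpowers z ≤ (P : Subgroup G) := by
  rw [Subgroup.zpowers_le]; exact h.zP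

omit [Finite G] in
theorem XD.zp_cen {c : G} (hc : c ∈ Subgroup.zpowers z) {y : G} (hy : z * y = y * z) : c * y = y * c := by
  obtain ⟨k, rfl⟩ := hc
  exact (Commute.zpow_left (show Commute z y from hy) k).eq

omit [Finite G] in
theorem XD.z_ne_inv : z ≠ z⁻¹ := by
  intro h1
  have h2 : z ^ 2 = 1 := by rw [sq]; nth_rewrite 2 [h1]; simp
  have h3 := h.z3
  rw [pow_succ, h2, one_mul] at h3
  exact h.z1 h3

omit [Finite G] in
/-- noncentral elements are conjugate in `P` to all elements of their coset of the centre -/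
theorem XD.conj_mul {u : G} (hu : u ∈ (P : Subgroup G)) (hu' : u ∉ Subgroup.zpowers z) {c : G}
    (hc : c ∈ Subgroup.zpowers z) : ∃ p ∈ (P : Subgroup G), p * u * p⁻¹ = u * c := by
  have h1 : ¬ ∀ y ∈ (P : Subgroup G), u * y = y * u := fun h1 => hu' (h.cenZ u hu h1)
  push Not at h1
  obtain ⟨y, hy, hyu⟩ := h1
  have hd := h.comm y hy u hu
  set d := y * u * y⁻¹ * u⁻¹ with hdef
  have hd1 : d ≠ 1 := by
    intro h2
    apply hyu
    rw [hdef, mul_inv_eq_one, mul_inv_eq_iff_eq_mul] at h2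
    exact h2.symm
  have hdu : d * u = u * d := h.zp_cen hd (h.cen u hu)
  have hdy : d * y = y * d := h.zp_cen hd (h.cen y hy)
  have e1 : y * u * y⁻¹ = u * d := by rw [← hdu, hdef]; group
  have e2 : y⁻¹ * u * y = u * d⁻¹ := by
    have : y * (u * d⁻¹) * y⁻¹ = u := by
      calc y * (u * d⁻¹) * y⁻¹ = (y * u * y⁻¹) * (y * d⁻¹ * y⁻¹) := by group
        _ = u * d * d⁻¹ := by
            rw [e1]
            congr 1
            have : y * d⁻¹ = d⁻¹ * y := by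
              rw [eq_inv_mul_iff_mul_eq, ← mul_assoc, hdy]; group
            rw [this]; group
        _ = u := by group
    calc y⁻¹ * u * y = y⁻¹ * (y * (u * d⁻¹) * y⁻¹) * y := by rw [this]
      _ = u * d⁻¹ := by group
  have hzd : z = d ∨ z = d⁻¹ := by
    rcases h.mem_zp.1 hd with h2 | h2 | h2
    · exact absurd h2 hd1
    · left; exact h2.symm
    · right; rw [h2, inv_inv]
  rcases h.mem_zp.1 hc with rfl | rfl | rfl
  · exact ⟨1, (P : Subgroup G).one_mem, by simp⟩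
  · rcases hzd with h2 | h2
    · exact ⟨y, hy, by rw [e1, ← h2]⟩
    · exact ⟨y⁻¹, (P : Subgroup G).inv_mem hy, by rw [inv_inv, e2, ← h2]⟩
  · rcases hzd with h2 | h2
    · exact ⟨y⁻¹, (P : Subgroup G).inv_mem hy, by rw [inv_inv, e2, ← h2]⟩
    · exact ⟨y, hy, by rw [e1]; congr 1; rw [h2, inv_inv]⟩

omit [Finite G] in
theorem XD.card_zp : Nat.card (Subgroup.zpowers z) = 3 := by
  rw [Nat.card_zpowers, h.ordz]

/-- the centralizer in `P` of an element -/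
def XV (P : Sylow 3 G) (u : G) : Subgroup G := (P : Subgroup G) ⊓ Subgroup.centralizer {u}

omit [Finite G] h in
theorem mem_XV {u v : G} : v ∈ XV P u ↔ v ∈ (P : Subgroup G) ∧ v * u = u * v := by
  unfold XV
  rw [Subgroup.mem_inf, Subgroup.mem_centralizer_singleton_iff]

omit [Finite G] in
/-- the commutator homomorphism -/
def XD.chom {u : G} (hu : u ∈ (P : Subgroup G)) : (P : Subgroup G) →* Subgroup.zpowers z :=
  MonoidHom.mk' (fun y => ⟨(y : G) * u * (y : G)⁻¹ * u⁻¹, h.comm y y.2 u hu⟩) (by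
    intro a b
    apply Subtype.ext
    have h1 := h.comm b b.2 u hu
    have h2 := h.zp_cen h1 (h.cen a a.2)
    have h3 := h.zp_cen h1 (h.cen u hu)
    show (a : G) * b * u * ((a : G) * b)⁻¹ * u⁻¹ = ((a : G) * u * (a : G)⁻¹ * u⁻¹) * ((b : G) * u * (b : G)⁻¹ * u⁻¹)
    set d := (b : G) * u * (b : G)⁻¹ * u⁻¹ with hd
    have e1 : (b : G) * u * (b : G)⁻¹ = d * u := by rw [hd]; group
    calc (a : G) * b * u * ((a : G) * b)⁻¹ * u⁻¹ = a * (b * u * (b : G)⁻¹) * (a : G)⁻¹ * u⁻¹ := by group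
      _ = a * (d * u) * (a : G)⁻¹ * u⁻¹ := by rw [e1]
      _ = (a * d) * u * (a : G)⁻¹ * u⁻¹ := by group
      _ = d * (a * u * (a : G)⁻¹ * u⁻¹) := by rw [← h2]; group
      _ = (a * u * (a : G)⁻¹ * u⁻¹) * d := h.zp_cen h1 (h.cen _ (h.zp_le (h.comm a a.2 u hu))))

omit [Finite G] in
theorem XD.card_XV [Finite G] {u : G} (hu : u ∈ (P : Subgroup G)) (hu' : u ∉ Subgroup.zpowers z) :
    Nat.card (XV P u) = 9 := by
  have h1 : Function.Surjective (h.chom hu) := by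
    rintro ⟨c, hc⟩
    obtain ⟨p, hp, hpu⟩ := h.conj_mul hu hu' hc
    refine ⟨⟨p, hp⟩, Subtype.ext ?_⟩
    show p * u * p⁻¹ * u⁻¹ = c
    rw [hpu, ← h.zp_cen hc (h.cen u hu)]; group
  have h2 := Subgroup.card_eq_card_quotient_mul_card_subgroup (h.chom hu).ker
  rw [Nat.card_congr (QuotientGroup.quotientKerEquivOfSurjective _ h1).toEquiv, h.card_zp, h.card] at h2
  have h3 : Nat.card (h.chom hu).ker = Nat.card (XV P u) := by
    apply Nat.card_congr
    refine ⟨fun y => ⟨y.1.1, mem_XV.2 ⟨y.1.2, ?_⟩⟩, fun v => ⟨⟨v.1, (mem_XV.1 v.2).1⟩, ?_⟩, fun _ => rfl, fun _ => rfl⟩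
    · have h4 := congrArg Subtype.val (MonoidHom.mem_ker.1 y.2)
      have h5 : (y.1.1 : G) * u * (y.1.1 : G)⁻¹ * u⁻¹ = 1 := h4
      rw [mul_inv_eq_one, mul_inv_eq_iff_eq_mul] at h5
      exact h5
    · rw [MonoidHom.mem_ker]
      apply Subtype.ext
      show v.1 * u * v.1⁻¹ * u⁻¹ = 1
      rw [mul_inv_eq_one, mul_inv_eq_iff_eq_mul]
      exact (mem_XV.1 v.2).2
  omega

/-- the subgroup of elements centralizing `z` and `x` modulo `⟨z⟩` -/
def XK (z x : G) : Subgroup G where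
  carrier := {g | g * z = z * g ∧ g * x * g⁻¹ * x⁻¹ ∈ Subgroup.zpowers z}
  one_mem' := by simp
  mul_mem' := by
    rintro a b ⟨ha, ha'⟩ ⟨hb, hb'⟩
    refine ⟨by rw [mul_assoc, hb, ← mul_assoc, ha, mul_assoc], ?_⟩
    have h1 : a * b * x * (a * b)⁻¹ * x⁻¹ = (a * (b * x * b⁻¹ * x⁻¹) * a⁻¹) * (a * x * a⁻¹ * x⁻¹) := by group
    rw [h1]
    refine mul_mem ?_ ha'
    obtain ⟨k, hk⟩ := hb'
    rw [← hk]
    have h2 : a * z ^ k * a⁻¹ = z ^ k := by
      rw [(Commute.zpow_right (show Commute a z from ha) k).eq]; group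
    simp only at h2 ⊢
    rw [h2]
    exact Subgroup.zpow_mem _ (Subgroup.mem_zpowers z) k
  inv_mem' := by
    rintro a ⟨ha, ha'⟩
    have ha2 : a⁻¹ * z = z * a⁻¹ := by rw [inv_mul_eq_iff_eq_mul, ← mul_assoc, ha]; group
    refine ⟨ha2, ?_⟩
    have h1 : a⁻¹ * x * a⁻¹⁻¹ * x⁻¹ = (a⁻¹ * (a * x * a⁻¹ * x⁻¹) * a⁻¹⁻¹)⁻¹ := by group
    rw [h1]
    refine inv_mem ?_
    obtain ⟨k, hk⟩ := ha'
    rw [← hk]
    have h2 : a⁻¹ * z ^ k * a⁻¹⁻¹ = z ^ k := by
      rw [(Commute.zpow_right (show Commute a⁻¹ z from ha2) k).eq]; group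
    simp only at h2 ⊢
    rw [h2]
    exact Subgroup.zpow_mem _ (Subgroup.mem_zpowers z) k

omit [Finite G] h in
theorem mem_XK {x g : G} : g ∈ XK z x ↔ g * z = z * g ∧ g * x * g⁻¹ * x⁻¹ ∈ Subgroup.zpowers z := Iff.rfl

/-- the Frattini argument -/
theorem XD.frattini {x : G} (hx : x ∈ (P : Subgroup G)) (hx' : x ∉ Subgroup.zpowers z) {n : G}
    (hn : ∀ y ∈ (P : Subgroup G), n * y * n⁻¹ ∈ XK z x) :
    ∃ d : G, d * x = x * d ∧ d * z = z * d ∧ d * n ∈ Subgroup.normalizer ((P : Subgroup G) : Set G) := by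
  have h1 : (P : Subgroup G) ≤ XK z x := fun y hy => ⟨(h.cen y hy).symm, h.comm y hy x hx⟩
  have h2 : ((n • P : Sylow 3 G) : Subgroup G) ≤ XK z x := by
    rw [Sylow.coe_subgroup_smul]
    rintro _ ⟨y, hy, rfl⟩
    exact hn y hy
  obtain ⟨k, hk, hk2⟩ := conj_in P (n • P) h1 h2
  have h3 : k * n ∈ Subgroup.normalizer ((P : Subgroup G) : Set G) := by
    apply mem_normalizer_of_le
    intro y hy
    have h4 : n * y * n⁻¹ ∈ ((n • P : Sylow 3 G) : Subgroup G) := by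
      rw [Sylow.coe_subgroup_smul]
      exact ⟨y, hy, rfl⟩
    have h5 := hk2 _ h4
    rw [show k * n * y * (k * n)⁻¹ = k * (n * y * n⁻¹) * k⁻¹ by group]
    exact h5
  obtain ⟨hk3, hk4⟩ := mem_XK.1 hk
  obtain ⟨p, hp, hpx⟩ := h.conj_mul hx hx' hk4
  have h6 : p * x * p⁻¹ = k * x * k⁻¹ := by
    rw [hpx, ← h.zp_cen hk4 (h.cen x hx)]; group
  refine ⟨p⁻¹ * k, ?_, ?_, ?_⟩
  · have h7 : p⁻¹ * (k * x * k⁻¹) * p = x := by rw [← h6]; group
    calc p⁻¹ * k * x = (p⁻¹ * (k * x * k⁻¹) * p) * (p⁻¹ * k) := by group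
      _ = x * (p⁻¹ * k) := by rw [h7]
  · have h8 : p⁻¹ * z = z * p⁻¹ := (h.cen _ ((P : Subgroup G).inv_mem hp)).symm
    calc p⁻¹ * k * z = p⁻¹ * (k * z) := by group
      _ = (p⁻¹ * z) * k := by rw [hk3]; group
      _ = z * (p⁻¹ * k) := by rw [h8]; group
  · rw [mul_assoc]
    exact Subgroup.mul_mem _ (Subgroup.inv_mem _ (Subgroup.le_normalizer hp)) h3

/-- no noncentral element of `P` is conjugate to a central one -/
theorem XD.not_conj_central {x : G} (hx : x ∈ (P : Subgroup G)) (hx' : x ∉ Subgroup.zpowers z) {g : G}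
    (hg : g * x * g⁻¹ ∈ Subgroup.zpowers z) : False := by
  haveI : Fact (Nat.Prime 3) := ⟨Nat.prime_three⟩
  set C := Subgroup.centralizer ({x} : Set G) with hC
  have memC : ∀ y, y ∈ C ↔ y * x = x * y := fun y => by rw [hC, Subgroup.mem_centralizer_singleton_iff]
  -- the Sylow subgroup `g⁻¹ P g` of `G` lies in `C`
  have hQ : ((g⁻¹ • P : Sylow 3 G) : Subgroup G) ≤ C := by
    rw [Sylow.coe_subgroup_smul]
    rintro _ ⟨y, hy, rfl⟩
    show g⁻¹ * y * g⁻¹⁻¹ ∈ C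
    rw [memC]
    have h1 := h.zp_cen hg (h.cen y hy)
    calc g⁻¹ * y * g⁻¹⁻¹ * x = g⁻¹ * (y * (g * x * g⁻¹)) * g := by group
      _ = x * (g⁻¹ * y * g⁻¹⁻¹) := by rw [← h1]; group
  have hVC : XV P x ≤ C := inf_le_right
  have hVp : IsPGroup 3 ((XV P x).subgroupOf C) := by
    apply IsPGroup.comap_of_injective (P.2.to_le inf_le_left) _ Subtype.coe_injective
  obtain ⟨R, hR⟩ := hVp.exists_le_sylow
  obtain ⟨c, hc⟩ := MulAction.exists_smul_eq C R ((g⁻¹ • P).subtype hQ)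
  -- `k V k⁻¹ ≤ P` and `k x k⁻¹ ∈ ⟨z⟩`
  have hcx : (c : G) * x = x * c := (memC _).1 c.2
  set k := g * c with hk
  have hkx : k * x * k⁻¹ ∈ Subgroup.zpowers z := by
    have : k * x * k⁻¹ = g * x * g⁻¹ := by
      calc k * x * k⁻¹ = g * (c * x) * (c : G)⁻¹ * g⁻¹ := by rw [hk]; group
        _ = g * x * g⁻¹ := by rw [hcx]; group
    rw [this]; exact hg
  have hkV : ∀ v ∈ XV P x, k * v * k⁻¹ ∈ (P : Subgroup G) := by
    intro v hv
    have h1 : (⟨v, hVC hv⟩ : C) ∈ (R : Subgroup C) := hR hv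
    have h2 : c * ⟨v, hVC hv⟩ * c⁻¹ ∈ ((g⁻¹ • P).subtype hQ : Subgroup C) := by
      rw [← hc, Sylow.coe_subgroup_smul]
      exact ⟨_, h1, rfl⟩
    have h3 : (c : G) * v * (c : G)⁻¹ ∈ ((g⁻¹ • P : Sylow 3 G) : Subgroup G) := h2
    rw [Sylow.coe_subgroup_smul] at h3
    obtain ⟨y, hy, hyv⟩ := h3
    have h4 : g⁻¹ * y * g⁻¹⁻¹ = (c : G) * v * (c : G)⁻¹ := hyv
    have h5 : k * v * k⁻¹ = y := by
      calc k * v * k⁻¹ = g * ((c : G) * v * (c : G)⁻¹) * g⁻¹ := by rw [hk]; group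
        _ = y := by rw [← h4]; group
    rw [h5]; exact hy
  -- the two elements
  have hzV : z ∈ XV P x := mem_XV.2 ⟨h.zP, h.cen x hx⟩
  set w := k * z * k⁻¹ with hw
  have hwP : w ∈ (P : Subgroup G) := hkV z hzV
  have hx1 : x ≠ 1 := by rintro rfl; exact hx' (Subgroup.one_mem _)
  have hw' : w ∉ Subgroup.zpowers z := by
    intro hcon
    -- both `k x k⁻¹` and `w` generate the centre
    have h1 : ∀ a b : G, a ∈ Subgroup.zpowers z → b ∈ Subgroup.zpowers z → b ≠ 1 → a ∈ Subgroup.zpowers b := by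
      intro a b ha hb hb1
      rcases h.mem_zp.1 hb with rfl | rfl | rfl
      · exact absurd rfl hb1
      · exact ha
      · rwa [Subgroup.zpowers_inv]
    have hw1 : w ≠ 1 := by
      intro h2
      apply h.z1
      rw [hw] at h2
      rwa [mul_inv_eq_one, mul_eq_left] at h2
    obtain ⟨j, hj⟩ := h1 _ w hkx hcon hw1
    apply hx'
    refine ⟨j, ?_⟩
    have h3 : (k * z * k⁻¹) ^ j = k * x * k⁻¹ := hj
    rw [conj_zpow] at h3
    simpa using h3
  obtain ⟨a, haP, hax⟩ := h.conj_mul hx hx' (Subgroup.mem_zpowers z)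
  obtain ⟨q, hqP, hqw⟩ := h.conj_mul hwP hw' (Subgroup.inv_mem _ hkx)
  have haz : a * z * a⁻¹ = z := by rw [← h.cen a haP]; group
  have hxz : x * z = z * x := (h.cen x hx).symm
  set b := k⁻¹ * q * k with hb
  have hbz : b * z * b⁻¹ = z * x⁻¹ := by
    calc b * z * b⁻¹ = k⁻¹ * (q * w * q⁻¹) * k := by rw [hb, hw]; group
      _ = k⁻¹ * (w * (k * x * k⁻¹)⁻¹) * k := by rw [hqw]
      _ = z * x⁻¹ := by rw [hw]; group
  have hbx : b * x * b⁻¹ = x := by
    have h1 := h.zp_cen hkx (h.cen q hqP)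
    calc b * x * b⁻¹ = k⁻¹ * (q * (k * x * k⁻¹) * q⁻¹) * k := by rw [hb]; group
      _ = x := by rw [← h1]; group
  set t := a * b * a with ht
  have htx : t * x * t⁻¹ = z := by
    calc t * x * t⁻¹ = a * (b * (a * x * a⁻¹) * b⁻¹) * a⁻¹ := by rw [ht]; group
      _ = a * ((b * x * b⁻¹) * (b * z * b⁻¹)) * a⁻¹ := by rw [hax]; group
      _ = a * (x * (z * x⁻¹)) * a⁻¹ := by rw [hbx, hbz]
      _ = a * z * a⁻¹ := by rw [← mul_assoc x z, hxz]; group
      _ = z := haz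
  have htz : t * z * t⁻¹ = x⁻¹ := by
    calc t * z * t⁻¹ = a * (b * (a * z * a⁻¹) * b⁻¹) * a⁻¹ := by rw [ht]; group
      _ = a * (z * x⁻¹) * a⁻¹ := by rw [haz, hbz]
      _ = (a * z * a⁻¹) * (a * x * a⁻¹)⁻¹ := by group
      _ = z * (x * z)⁻¹ := by rw [haz, hax]
      _ = x⁻¹ := by rw [mul_inv_rev]; group
  set n := t * t with hn
  have hnx : n * x * n⁻¹ = x⁻¹ := by
    calc n * x * n⁻¹ = t * (t * x * t⁻¹) * t⁻¹ := by rw [hn]; group
      _ = x⁻¹ := by rw [htx, htz]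
  have hnz : n * z * n⁻¹ = z⁻¹ := by
    calc n * z * n⁻¹ = t * (t * z * t⁻¹) * t⁻¹ := by rw [hn]; group
      _ = (t * x * t⁻¹)⁻¹ := by rw [htz]; group
      _ = z⁻¹ := by rw [htx]
  have hnz' : n⁻¹ * z * n = z⁻¹ := by
    have : n * z⁻¹ * n⁻¹ = z := by
      calc n * z⁻¹ * n⁻¹ = (n * z * n⁻¹)⁻¹ := by group
        _ = z := by rw [hnz, inv_inv]
    calc n⁻¹ * z * n = n⁻¹ * (n * z⁻¹ * n⁻¹) * n := by rw [this]
      _ = z⁻¹ := by group
  have hnx' : n⁻¹ * x * n = x⁻¹ := by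
    have : n * x⁻¹ * n⁻¹ = x := by
      calc n * x⁻¹ * n⁻¹ = (n * x * n⁻¹)⁻¹ := by group
        _ = x := by rw [hnx, inv_inv]
    calc n⁻¹ * x * n = n⁻¹ * (n * x⁻¹ * n⁻¹) * n := by rw [this]
      _ = x⁻¹ := by group
  obtain ⟨d, hdx, hdz, hdn⟩ := h.frattini hx hx' (n := n) (by
    intro y hy
    have hyz := h.cen y hy
    have hyx := h.comm y hy x hx
    rw [mem_XK]
    constructor
    · calc n * y * n⁻¹ * z = n * (y * (n⁻¹ * z * n)) * n⁻¹ := by group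
        _ = n * (y * z⁻¹) * n⁻¹ := by rw [hnz']
        _ = n * (z⁻¹ * y) * n⁻¹ := by
            have : y * z⁻¹ = z⁻¹ * y := by
              rw [eq_inv_mul_iff_mul_eq, ← mul_assoc, hyz]; group
            rw [this]
        _ = (n * z * n⁻¹)⁻¹ * (n * y * n⁻¹) := by group
        _ = z * (n * y * n⁻¹) := by rw [hnz, inv_inv]
    · set e := y * x * y⁻¹ * x⁻¹ with he
      have he1 : y * x * y⁻¹ = e * x := by rw [he]; group
      have he2 : n * e * n⁻¹ = e⁻¹ := by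
        obtain ⟨j, hj⟩ := hyx
        have hj' : z ^ j = e := hj
        rw [← hj', ← conj_zpow, hnz, inv_zpow]
      have e3 : n * y * n⁻¹ * x * (n * y * n⁻¹)⁻¹ * x⁻¹ = e := by
        calc n * y * n⁻¹ * x * (n * y * n⁻¹)⁻¹ * x⁻¹ = n * (y * (n⁻¹ * x * n) * y⁻¹) * n⁻¹ * x⁻¹ := by group
          _ = n * (y * x * y⁻¹)⁻¹ * n⁻¹ * x⁻¹ := by rw [hnx']; group
          _ = (n * x * n⁻¹)⁻¹ * (n * e * n⁻¹)⁻¹ * x⁻¹ := by rw [he1]; group
          _ = x * e * x⁻¹ := by rw [hnx, he2, inv_inv, inv_inv]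
          _ = e := by rw [← h.zp_cen hyx (h.cen x hx)]; group
      rw [e3]
      exact hyx)
  have h1 := h.nc _ hdn
  have h2 : d * n * z * (d * n)⁻¹ = z⁻¹ := by
    have hdz' : d * z⁻¹ = z⁻¹ * d := by
      rw [eq_inv_mul_iff_mul_eq, ← mul_assoc, ← hdz]; group
    calc d * n * z * (d * n)⁻¹ = d * (n * z * n⁻¹) * d⁻¹ := by group
      _ = d * z⁻¹ * d⁻¹ := by rw [hnz]
      _ = z⁻¹ := by rw [hdz']; group
  have h3 : d * n * z * (d * n)⁻¹ = z := by rw [h1]; group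
  exact h.z_ne_inv (h3.symm.trans h2)

theorem XD.not_conj_inv {g : G} (hg : g * z * g⁻¹ = z⁻¹) : False := by
  have memC : ∀ y, y ∈ Subgroup.centralizer ({z} : Set G) ↔ y * z = z * y := fun y => by
    rw [Subgroup.mem_centralizer_singleton_iff]
  have h1 : (P : Subgroup G) ≤ Subgroup.centralizer ({z} : Set G) := fun y hy => (memC y).2 (h.cen y hy).symm
  have h2 : ((g • P : Sylow 3 G) : Subgroup G) ≤ Subgroup.centralizer ({z} : Set G) := by
    rw [Sylow.coe_subgroup_smul]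
    rintro _ ⟨y, hy, rfl⟩
    show g * y * g⁻¹ ∈ _
    rw [memC]
    have h3 : z = g * z⁻¹ * g⁻¹ := by
      calc z = (g * z * g⁻¹)⁻¹ := by rw [hg, inv_inv]
        _ = g * z⁻¹ * g⁻¹ := by group
    have hyz : y * z⁻¹ = z⁻¹ * y := by
      rw [eq_inv_mul_iff_mul_eq, ← mul_assoc, h.cen y hy]; group
    calc g * y * g⁻¹ * z = g * y * g⁻¹ * (g * z⁻¹ * g⁻¹) := by rw [← h3]
      _ = g * (y * z⁻¹) * g⁻¹ := by group
      _ = (g * z⁻¹ * g⁻¹) * (g * y * g⁻¹) := by rw [hyz]; group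
      _ = z * (g * y * g⁻¹) := by rw [← h3]
  obtain ⟨k, hk, hk2⟩ := conj_in P (g • P) h1 h2
  have h3 : k * g ∈ Subgroup.normalizer ((P : Subgroup G) : Set G) := by
    apply mem_normalizer_of_le
    intro y hy
    have h4 : g * y * g⁻¹ ∈ ((g • P : Sylow 3 G) : Subgroup G) := by
      rw [Sylow.coe_subgroup_smul]
      exact ⟨y, hy, rfl⟩
    rw [show k * g * y * (k * g)⁻¹ = k * (g * y * g⁻¹) * k⁻¹ by group]
    exact hk2 _ h4
  have h5 := h.nc _ h3
  have hkz := (memC k).1 hk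
  have hkz' : k * z⁻¹ = z⁻¹ * k := by
    rw [eq_inv_mul_iff_mul_eq, ← mul_assoc, ← hkz]; group
  have h6 : k * g * z * (k * g)⁻¹ = z⁻¹ := by
    calc k * g * z * (k * g)⁻¹ = k * (g * z * g⁻¹) * k⁻¹ := by group
      _ = z⁻¹ := by rw [hg, hkz']; group
  have h7 : k * g * z * (k * g)⁻¹ = z := by rw [h5]; group
  exact h.z_ne_inv (h7.symm.trans h6)

/-- `z` is the only conjugate of `z` in `P` -/
theorem XD.eq_of_conj {x g : G} (hx : x ∈ (P : Subgroup G)) (hg : g * z * g⁻¹ = x) : x = z := by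
  by_cases hx' : x ∈ Subgroup.zpowers z
  · rcases h.mem_zp.1 hx' with h1 | h1 | h1
    · exfalso
      rw [h1, mul_inv_eq_one, mul_eq_left] at hg
      exact h.z1 hg
    · exact h1
    · exact (h.not_conj_inv (hg.trans h1)).elim
  · exfalso
    refine h.not_conj_central hx hx' (g := g⁻¹) ?_
    have : g⁻¹ * x * g⁻¹⁻¹ = z := by rw [← hg]; group
    rw [this]; exact Subgroup.mem_zpowers z

end

end Cfsg.Agent.Lib.H16XA
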