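import Cfsg.Agent.Lib.H16XA

/-!
# Groups with an extraspecial Sylow 3-subgroup of order 27 and exponent 3: control of fusion (helper16)
-/

set_option autoImplicit false
set_option linter.all false

namespace Cfsg.Agent.Lib.H16XA

open Cfsg

variable {G : Type*} [Group G] [Finite G] {P : Sylow 3 G} {z : G} (h : XD P z)
include h

omit [Finite G] h in
theorem mem_C {u y : G} : y ∈ Subgroup.centralizer ({u} : Set G) ↔ y * u = u * y :=
  Subgroup.mem_centralizer_singleton_iff

/-- the centralizer in `P` of a noncentral element is a Sylow subgroup of its centralizer in `G` -/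
theorem XD.sylC {u : G} (hu : u ∈ (P : Subgroup G)) (hu' : u ∉ Subgroup.zpowers z) :
    ∃ S : Sylow 3 (Subgroup.centralizer ({u} : Set G)),
      Nat.card (S : Subgroup (Subgroup.centralizer ({u} : Set G))) = 9 ∧
      ∀ y : Subgroup.centralizer ({u} : Set G), y ∈ (S : Subgroup (Subgroup.centralizer ({u} : Set G))) ↔
        (y : G) ∈ (P : Subgroup G) := by
  haveI : Fact (Nat.Prime 3) := ⟨Nat.prime_three⟩
  set C := Subgroup.centralizer ({u} : Set G) with hC
  have hVC : XV P u ≤ C := inf_le_right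
  have hVp : IsPGroup 3 ((XV P u).subgroupOf C) := by
    apply IsPGroup.comap_of_injective (P.2.to_le inf_le_left) _ Subtype.coe_injective
  obtain ⟨R, hR⟩ := hVp.exists_le_sylow
  have hcV : Nat.card ((XV P u).subgroupOf C) = 9 := by
    rw [Nat.card_congr (Subgroup.subgroupOfEquivOfLe hVC).toEquiv, h.card_XV hu hu']
  -- move `R` into `P`
  have hRp : IsPGroup 3 ((R : Subgroup C).map C.subtype) := R.2.map _
  obtain ⟨Q, hQ⟩ := hRp.exists_le_sylow
  obtain ⟨s, hs⟩ := MulAction.exists_smul_eq G Q P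
  have hsR : ∀ y : C, y ∈ (R : Subgroup C) → s * y * s⁻¹ ∈ (P : Subgroup G) := by
    intro y hy
    rw [← hs, Sylow.coe_subgroup_smul]
    exact ⟨y, hQ ⟨y, hy, rfl⟩, rfl⟩
  have huC : u ∈ C := mem_C.2 rfl
  have huV : u ∈ XV P u := mem_XV.2 ⟨hu, rfl⟩
  have huR : (⟨u, huC⟩ : C) ∈ (R : Subgroup C) := hR huV
  have hsu : s * u * s⁻¹ ∈ (P : Subgroup G) := hsR _ huR
  have hsu' : s * u * s⁻¹ ∉ Subgroup.zpowers z := fun h1 => h.not_conj_central hu hu' h1
  have hle : Nat.card (R : Subgroup C) ≤ 9 := by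
    rw [← h.card_XV hsu hsu']
    apply Nat.card_le_card_of_injective
      (fun y : (R : Subgroup C) => (⟨s * y.1.1 * s⁻¹, mem_XV.2 ⟨hsR _ y.2, by
        have h1 := mem_C.1 y.1.2
        calc s * y.1.1 * s⁻¹ * (s * u * s⁻¹) = s * (y.1.1 * u) * s⁻¹ := by group
          _ = s * u * s⁻¹ * (s * y.1.1 * s⁻¹) := by rw [h1]; group⟩⟩ : XV P (s * u * s⁻¹)))
    intro y y' hyy
    have h1 := congrArg Subtype.val hyy
    simp only at h1
    exact Subtype.ext (Subtype.ext (by simpa using h1))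
  have heq : (XV P u).subgroupOf C = (R : Subgroup C) := by
    apply Subgroup.eq_of_le_of_card_ge hR
    rw [hcV]; exact hle
  refine ⟨R, by rw [← heq, hcV], fun y => ?_⟩
  rw [← heq, Subgroup.mem_subgroupOf, mem_XV]
  exact ⟨fun h1 => h1.1, fun h1 => ⟨h1, mem_C.1 y.2⟩⟩

/-- centralizers of noncentral elements are 3-nilpotent -/
theorem XD.nil {u : G} (hu : u ∈ (P : Subgroup G)) (hu' : u ∉ Subgroup.zpowers z) :
    ∃ N : Subgroup (Subgroup.centralizer ({u} : Set G)), N.Normal ∧ ¬ 3 ∣ Nat.card N ∧ N.index = 3 ^ 2 := by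
  haveI : Fact (Nat.Prime 3) := ⟨Nat.prime_three⟩
  obtain ⟨S, hS, hSm⟩ := h.sylC hu hu'
  have huS : (⟨u, mem_C.2 rfl⟩ : Subgroup.centralizer ({u} : Set G)) ∈ (S : Subgroup (Subgroup.centralizer ({u} : Set G))) := (hSm _).2 hu
  have hzC : z ∈ Subgroup.centralizer ({u} : Set G) := mem_C.2 (h.cen u hu)
  have hzS : (⟨z, hzC⟩ : Subgroup.centralizer ({u} : Set G)) ∈ (S : Subgroup (Subgroup.centralizer ({u} : Set G))) := (hSm _).2 h.zP
  have hn : Subgroup.normalizer ((S : Subgroup (Subgroup.centralizer ({u} : Set G))) :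
      Set (Subgroup.centralizer ({u} : Set G))) ≤
      Subgroup.centralizer ((S : Subgroup (Subgroup.centralizer ({u} : Set G))) :
      Set (Subgroup.centralizer ({u} : Set G))) := by
    intro g hg
    have h1 : (g : G) * z * (g : G)⁻¹ ∈ (P : Subgroup G) := by
      have := (Subgroup.mem_normalizer_iff.1 hg ⟨z, hzC⟩).1 hzS
      exact (hSm _).1 this
    have h2 := h.eq_of_conj h1 rfl
    have h3 : (g : G) * z = z * g := by
      nth_rewrite 2 [← h2]; group
    have h4 : (g : G) * u = u * g := mem_C.1 g.2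
    -- elements of `S` are products of powers of `u` and `z`
    set D : Subgroup (Subgroup.centralizer ({u} : Set G)) := (S : Subgroup (Subgroup.centralizer ({u} : Set G))) ⊓ Subgroup.centralizer {g} with hD
    have hDle : D ≤ (S : Subgroup (Subgroup.centralizer ({u} : Set G))) := inf_le_left
    have huD : (⟨u, mem_C.2 rfl⟩ : Subgroup.centralizer ({u} : Set G)) ∈ D :=
      ⟨huS, Subgroup.mem_centralizer_singleton_iff.2 (Subtype.ext h4.symm)⟩
    have hzD : (⟨z, hzC⟩ : Subgroup.centralizer ({u} : Set G)) ∈ D :=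
      ⟨hzS, Subgroup.mem_centralizer_singleton_iff.2 (Subtype.ext h3.symm)⟩
    have hDS : D = (S : Subgroup (Subgroup.centralizer ({u} : Set G))) := by
      have hc : Nat.card D ∣ 3 ^ 2 := by
        have := Subgroup.card_dvd_of_le hDle
        rw [hS] at this
        exact this
      obtain ⟨j, hj, hjc⟩ := (Nat.dvd_prime_pow Nat.prime_three).1 hc
      have hz3 : orderOf (⟨z, hzC⟩ : Subgroup.centralizer ({u} : Set G)) = 3 := by
        rw [← Subgroup.orderOf_coe]; exact h.ordz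
      apply Subgroup.eq_of_le_of_card_ge hDle
      rw [hS, hjc]
      by_contra hcon
      push Not at hcon
      have hj1 : j ≤ 1 := by
        by_contra h5
        have : j = 2 := by omega
        rw [this] at hcon; norm_num at hcon
      have h6 : Nat.card D ≤ 3 := by
        rw [hjc]
        calc 3 ^ j ≤ 3 ^ 1 := Nat.pow_le_pow_right (by norm_num) hj1
          _ = 3 := by norm_num
      have h7 : Subgroup.zpowers (⟨z, hzC⟩ : Subgroup.centralizer ({u} : Set G)) = D := by
        apply Subgroup.eq_of_le_of_card_ge (by rw [Subgroup.zpowers_le]; exact hzD)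
        rw [Nat.card_zpowers, hz3]; exact h6
      rw [← h7] at huD
      obtain ⟨i, hi⟩ := huD
      apply hu'
      exact ⟨i, congrArg Subtype.val hi⟩
    rw [Subgroup.mem_centralizer_iff]
    intro y hy
    have hy' : y ∈ D := by rw [hDS]; exact hy
    exact Subgroup.mem_centralizer_singleton_iff.1 hy'.2
  obtain ⟨Q, N, hN, hc⟩ := Cfsg.Agent.Lib.TransferApps.hasNormalPComplement_of_normalizer_le_centralizer S hn
  have hQ : Nat.card (Q : Subgroup (Subgroup.centralizer ({u} : Set G))) = 3 ^ 2 := by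
    rw [← Nat.card_congr (Sylow.equiv S Q).toEquiv, hS]; norm_num
  refine ⟨N, hN, ?_, ?_⟩
  · have h2 := Q.not_dvd_index
    rwa [hc.index_eq_card] at h2
  · rw [hc.symm.index_eq_card]; exact hQ

/-- `N(P)` controls fusion of noncentral elements of `P` -/
theorem XD.fusion {u x g : G} (hu : u ∈ (P : Subgroup G)) (hu' : u ∉ Subgroup.zpowers z)
    (hx : x ∈ (P : Subgroup G)) (hg : g * u * g⁻¹ = x) :
    ∃ n ∈ Subgroup.normalizer ((P : Subgroup G) : Set G), n * u * n⁻¹ = x := by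
  haveI : Fact (Nat.Prime 3) := ⟨Nat.prime_three⟩
  have hx' : x ∉ Subgroup.zpowers z := fun h1 => h.not_conj_central hu hu' (g := g) (by rw [hg]; exact h1)
  obtain ⟨S, hS, hSm⟩ := h.sylC hx hx'
  -- `g V g⁻¹` inside `C(x)`
  have hVC : (XV P u).map (MulAut.conj g).toMonoidHom ≤ Subgroup.centralizer ({x} : Set G) := by
    rintro _ ⟨v, hv, rfl⟩
    show g * v * g⁻¹ ∈ _
    rw [mem_C, ← hg]
    have h1 := (mem_XV.1 hv).2
    calc g * v * g⁻¹ * (g * u * g⁻¹) = g * (v * u) * g⁻¹ := by group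
      _ = g * u * g⁻¹ * (g * v * g⁻¹) := by rw [h1]; group
  have hVp : IsPGroup 3 (((XV P u).map (MulAut.conj g).toMonoidHom).subgroupOf
      (Subgroup.centralizer ({x} : Set G))) := by
    apply IsPGroup.comap_of_injective _ _ Subtype.coe_injective
    exact (P.2.to_le inf_le_left : IsPGroup 3 (XV P u)).map _
  obtain ⟨R, hR⟩ := hVp.exists_le_sylow
  obtain ⟨c, hc⟩ := MulAction.exists_smul_eq (Subgroup.centralizer ({x} : Set G)) R S
  have hcx : (c : G) * x = x * c := mem_C.1 c.2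
  set k := (c : G) * g with hk
  have hkV : ∀ v ∈ XV P u, k * v * k⁻¹ ∈ (P : Subgroup G) := by
    intro v hv
    have h1 : g * v * g⁻¹ ∈ (XV P u).map (MulAut.conj g).toMonoidHom := ⟨v, hv, rfl⟩
    have h2 : (⟨g * v * g⁻¹, hVC h1⟩ : Subgroup.centralizer ({x} : Set G)) ∈
        (R : Subgroup (Subgroup.centralizer ({x} : Set G))) := hR h1
    have h3 : c * ⟨g * v * g⁻¹, hVC h1⟩ * c⁻¹ ∈ (S : Subgroup (Subgroup.centralizer ({x} : Set G))) := by
      rw [← hc, Sylow.coe_subgroup_smul]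
      exact ⟨_, h2, rfl⟩
    have h4 := (hSm _).1 h3
    rw [show k * v * k⁻¹ = (c : G) * (g * v * g⁻¹) * (c : G)⁻¹ by rw [hk]; group]
    exact h4
  have hku : k * u * k⁻¹ = x := by
    calc k * u * k⁻¹ = c * (g * u * g⁻¹) * (c : G)⁻¹ := by rw [hk]; group
      _ = x := by rw [hg, hcx]; group
  have hkz : k * z * k⁻¹ = z := h.eq_of_conj (hkV z (mem_XV.2 ⟨h.zP, h.cen u hu⟩)) rfl
  have hkz1 : k * z = z * k := by nth_rewrite 2 [← hkz]; group
  have hkz2 : k⁻¹ * z = z * k⁻¹ := by rw [inv_mul_eq_iff_eq_mul, ← mul_assoc, hkz1]; group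
  obtain ⟨d, hdu, hdz, hdn⟩ := h.frattini hu hu' (n := k⁻¹) (by
    intro y hy
    rw [mem_XK]
    constructor
    · have h1 := h.cen y hy
      calc k⁻¹ * y * k⁻¹⁻¹ * z = k⁻¹ * y * (k * z) := by group
        _ = k⁻¹ * (y * z) * k := by rw [hkz1]; group
        _ = (k⁻¹ * z) * y * k := by rw [← h1]; group
        _ = z * (k⁻¹ * y * k⁻¹⁻¹) := by rw [hkz2]; group
    · have h1 := h.comm y hy x hx
      have h2 : k⁻¹ * y * k⁻¹⁻¹ * u * (k⁻¹ * y * k⁻¹⁻¹)⁻¹ * u⁻¹ = k⁻¹ * (y * x * y⁻¹ * x⁻¹) * k := by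
        rw [← hku]; group
      rw [h2]
      obtain ⟨j, hj⟩ := h1
      have hj' : z ^ j = y * x * y⁻¹ * x⁻¹ := hj
      rw [← hj']
      have h3 : k⁻¹ * z ^ j * k = z ^ j := by
        have := (Commute.zpow_right (show Commute k⁻¹ z from hkz2) j).eq
        rw [this]; group
      rw [h3]
      exact Subgroup.zpow_mem _ (Subgroup.mem_zpowers z) j)
  refine ⟨(d * k⁻¹)⁻¹, Subgroup.inv_mem _ hdn, ?_⟩
  have hdu' : d⁻¹ * u = u * d⁻¹ := by rw [inv_mul_eq_iff_eq_mul, ← mul_assoc, hdu]; group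
  calc (d * k⁻¹)⁻¹ * u * (d * k⁻¹)⁻¹⁻¹ = k * (d⁻¹ * u) * d * k⁻¹ := by group
    _ = k * u * k⁻¹ := by rw [hdu']; group
    _ = x := hku

/-- elements of `N(P)` fixing a noncentral coset lie in `P C(P)` -/
theorem XD.semireg {u g : G} (hu : u ∈ (P : Subgroup G)) (hu' : u ∉ Subgroup.zpowers z)
    (hg : g ∈ Subgroup.normalizer ((P : Subgroup G) : Set G)) (hgu : g * u * g⁻¹ * u⁻¹ ∈ Subgroup.zpowers z) :
    g ∈ (P : Subgroup G) ⊔ Subgroup.centralizer ((P : Subgroup G) : Set G) := by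
  haveI : Fact (Nat.Prime 3) := ⟨Nat.prime_three⟩
  obtain ⟨p, hp, hpu⟩ := h.conj_mul hu hu' hgu
  have hpg : p * u * p⁻¹ = g * u * g⁻¹ := by
    rw [hpu, ← h.zp_cen hgu (h.cen u hu)]; group
  set k := p⁻¹ * g with hk
  have hkN : k ∈ Subgroup.normalizer ((P : Subgroup G) : Set G) :=
    Subgroup.mul_mem _ (Subgroup.inv_mem _ (Subgroup.le_normalizer hp)) hg
  have hku : k * u * k⁻¹ = u := by
    calc k * u * k⁻¹ = p⁻¹ * (g * u * g⁻¹) * p := by rw [hk]; group
      _ = u := by rw [← hpg]; group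
  have hkz : k * z = z * k := h.nc k hkN
  -- `k` centralizes the centralizer of `u` in `P`
  have hku1 : k * u = u * k := by nth_rewrite 2 [← hku]; group
  have hkV : ∀ v ∈ XV P u, k * v = v * k := by
    set D : Subgroup G := XV P u ⊓ Subgroup.centralizer {k} with hD
    have huD : u ∈ D := ⟨mem_XV.2 ⟨hu, rfl⟩, mem_C.2 hku1.symm⟩
    have hzD : z ∈ D := ⟨mem_XV.2 ⟨h.zP, h.cen u hu⟩, mem_C.2 hkz.symm⟩
    have hDS : D = XV P u := by
      have hc : Nat.card D ∣ 3 ^ 2 := by
        have := Subgroup.card_dvd_of_le (inf_le_left : D ≤ XV P u)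
        rw [h.card_XV hu hu'] at this
        exact this
      obtain ⟨j, hj, hjc⟩ := (Nat.dvd_prime_pow Nat.prime_three).1 hc
      apply Subgroup.eq_of_le_of_card_ge inf_le_left
      rw [h.card_XV hu hu', hjc]
      by_contra hcon
      push Not at hcon
      have hj1 : j ≤ 1 := by
        by_contra h5
        have : j = 2 := by omega
        rw [this] at hcon; norm_num at hcon
      have h6 : Nat.card D ≤ 3 := by
        rw [hjc]
        calc 3 ^ j ≤ 3 ^ 1 := Nat.pow_le_pow_right (by norm_num) hj1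
          _ = 3 := by norm_num
      have h7 : Subgroup.zpowers z = D := by
        apply Subgroup.eq_of_le_of_card_ge (by rw [Subgroup.zpowers_le]; exact hzD)
        rw [h.card_zp]; exact h6
      rw [← h7] at huD
      exact hu' huD
    intro v hv
    rw [← hDS] at hv
    exact (mem_C.1 hv.2).symm
  -- an element of `P` outside `V`
  have hex : ∃ v ∈ (P : Subgroup G), v ∉ XV P u := by
    by_contra hcon
    push Not at hcon
    apply hu'
    apply h.cenZ u hu
    intro y hy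
    exact ((mem_XV.1 (hcon y hy)).2).symm
  obtain ⟨v, hv, hvV⟩ := hex
  -- the cube of `k` centralizes `P`
  have hkv : k * v * k⁻¹ ∈ (P : Subgroup G) := (Subgroup.mem_normalizer_iff.1 hkN v).1 hv
  set a := v⁻¹ * (k * v * k⁻¹) with ha
  have haV : a ∈ XV P u := by
    rw [mem_XV]
    refine ⟨(P : Subgroup G).mul_mem ((P : Subgroup G).inv_mem hv) hkv, ?_⟩
    set c := v * u * v⁻¹ * u⁻¹ with hc
    have hcz : c ∈ Subgroup.zpowers z := h.comm v hv u hu
    have hkc : k * c * k⁻¹ = c := by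
      rw [← h.zp_cen hcz hkz.symm]; group
    have e1 : (k * v * k⁻¹) * u * (k * v * k⁻¹)⁻¹ = v * u * v⁻¹ := by
      have e2 : k⁻¹ * u * k = u := by
        calc k⁻¹ * u * k = k⁻¹ * (k * u * k⁻¹) * k := by rw [hku]
          _ = u := by group
      calc (k * v * k⁻¹) * u * (k * v * k⁻¹)⁻¹ = k * (v * (k⁻¹ * u * k) * v⁻¹) * k⁻¹ := by group
        _ = k * (v * u * v⁻¹) * k⁻¹ := by rw [e2]
        _ = k * (c * u) * k⁻¹ := by rw [hc]; group
        _ = (k * c * k⁻¹) * (k * u * k⁻¹) := by group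
        _ = v * u * v⁻¹ := by rw [hkc, hku, hc]; group
    calc a * u = v⁻¹ * ((k * v * k⁻¹) * u * (k * v * k⁻¹)⁻¹) * (k * v * k⁻¹) := by rw [ha]; group
      _ = u * a := by rw [e1, ha]; group
  have hka := hkV a haV
  have e1 : k * v * k⁻¹ = v * a := by rw [ha]; group
  have hk3v : k ^ 3 * v * (k ^ 3)⁻¹ = v := by
    have hka' : k * a * k⁻¹ = a := by rw [hka]; group
    have ha3 : a ^ 3 = 1 := h.exp a (mem_XV.1 haV).1
    have s2 : k * (v * a) * k⁻¹ = v * a * a := by
      calc k * (v * a) * k⁻¹ = (k * v * k⁻¹) * (k * a * k⁻¹) := by group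
        _ = v * a * a := by rw [e1, hka']
    have s3 : k * (v * a * a) * k⁻¹ = v * a * a * a := by
      calc k * (v * a * a) * k⁻¹ = (k * v * k⁻¹) * (k * a * k⁻¹) * (k * a * k⁻¹) := by group
        _ = v * a * a * a := by rw [e1, hka']
    calc k ^ 3 * v * (k ^ 3)⁻¹ = k * (k * (k * v * k⁻¹) * k⁻¹) * k⁻¹ := by
          simp only [pow_succ, pow_zero, one_mul, mul_inv_rev, mul_assoc]
      _ = k * (k * (v * a) * k⁻¹) * k⁻¹ := by rw [e1]
      _ = v * a * a * a := by rw [s2, s3]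
      _ = v * a ^ 3 := by simp only [pow_succ, pow_zero, one_mul, mul_assoc]
      _ = v := by rw [ha3, mul_one]
  have hk3 : k ^ 3 ∈ Subgroup.centralizer ((P : Subgroup G) : Set G) := by
    set D : Subgroup G := (P : Subgroup G) ⊓ Subgroup.centralizer {k ^ 3} with hD
    have hVD : XV P u ≤ D := by
      intro w hw
      refine ⟨(mem_XV.1 hw).1, mem_C.2 ?_⟩
      exact (Commute.pow_left (show Commute k w from hkV w hw) 3).eq.symm
    have hvD : v ∈ D := by
      refine ⟨hv, mem_C.2 ?_⟩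
      nth_rewrite 1 [← hk3v]; group
    have hDP : D = (P : Subgroup G) := by
      have hc : Nat.card D ∣ 3 ^ 3 := by
        have := Subgroup.card_dvd_of_le (inf_le_left : D ≤ (P : Subgroup G))
        rw [h.card] at this
        exact this
      obtain ⟨j, hj, hjc⟩ := (Nat.dvd_prime_pow Nat.prime_three).1 hc
      apply Subgroup.eq_of_le_of_card_ge inf_le_left
      rw [h.card, hjc]
      by_contra hcon
      push Not at hcon
      have hj1 : j ≤ 2 := by
        by_contra h5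
        have : j = 3 := by omega
        rw [this] at hcon; norm_num at hcon
      have h6 : Nat.card D ≤ 9 := by
        rw [hjc]
        calc 3 ^ j ≤ 3 ^ 2 := Nat.pow_le_pow_right (by norm_num) hj1
          _ = 9 := by norm_num
      have h7 : XV P u = D := by
        apply Subgroup.eq_of_le_of_card_ge hVD
        rw [h.card_XV hu hu']; exact h6
      rw [← h7] at hvD
      exact hvV hvD
    rw [Subgroup.mem_centralizer_iff]
    intro w hw
    have hw' : w ∈ D := by rw [hDP]; exact hw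
    exact mem_C.1 hw'.2
  -- split `k` into its parts
  have hg' : g = p * k := by rw [hk]; group
  rw [hg']
  refine Subgroup.mul_mem _ (Subgroup.mem_sup_left hp) ?_
  have hord : orderOf k ≠ 0 := (orderOf_pos k).ne'
  obtain ⟨i, b, hb, hib⟩ := Nat.exists_eq_pow_mul_and_not_dvd hord 3 (by norm_num)
  have hcop : Nat.Coprime (3 ^ (i + 1)) b := by
    apply Nat.Coprime.pow_left
    exact (Nat.prime_three.coprime_iff_not_dvd).2 hb
  have hbez := Nat.gcd_eq_gcd_ab (3 ^ (i + 1)) b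
  rw [hcop] at hbez
  set s := Nat.gcdA (3 ^ (i + 1)) b
  set t := Nat.gcdB (3 ^ (i + 1)) b
  have e2 : k = (k ^ 3) ^ ((3 : ℤ) ^ i * s) * k ^ ((b : ℤ) * t) := by
    rw [← zpow_natCast k 3, ← zpow_mul, ← zpow_add]
    nth_rewrite 1 [← zpow_one k]
    congr 1
    push_cast at hbez ⊢
    rw [hbez]; ring
  rw [e2]
  refine Subgroup.mul_mem _ (Subgroup.mem_sup_right (Subgroup.zpow_mem _ hk3 _)) (Subgroup.mem_sup_left ?_)
  set y := k ^ ((b : ℤ) * t) with hy
  have hyp : IsPGroup 3 (Subgroup.zpowers y) := by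
    rintro ⟨w, j, rfl⟩
    refine ⟨i, Subtype.ext ?_⟩
    show (y ^ j) ^ 3 ^ i = 1
    have e3 : y ^ 3 ^ i = 1 := by
      rw [hy, ← zpow_natCast, ← zpow_mul,
        show (b : ℤ) * t * ((3 ^ i : ℕ) : ℤ) = ((orderOf k : ℕ) : ℤ) * t by rw [hib]; push_cast; ring,
        zpow_mul, zpow_natCast, pow_orderOf_eq_one, one_zpow]
    rw [← zpow_natCast, zpow_comm, zpow_natCast, e3, one_zpow]
  have hyN : y ∈ Subgroup.normalizer ((P : Subgroup G) : Set G) := Subgroup.zpow_mem _ hkN _
  have h8 := hyp.inf_normalizer_sylow P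
  have h9 : y ∈ Subgroup.zpowers y ⊓ (P : Subgroup G) := by
    rw [← h8]
    exact ⟨Subgroup.mem_zpowers y, hyN⟩
  exact h9.2

end Cfsg.Agent.Lib.H16XA
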