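import Cfsg.Agent.Lib.H16XB

/-!
# Groups with an extraspecial Sylow 3-subgroup of order 27 and exponent 3: classes of 3-elements (helper16)
-/

set_option autoImplicit false
set_option linter.all false

namespace Cfsg.Agent.Lib.H16XA

open Cfsg

section orbit

variable {G : Type*} [Group G] [Finite G]

/-- the number of conjugates under a subgroup -/
theorem card_conj_set (K : Subgroup G) (x : G) :
    Nat.card {y : G // ∃ k ∈ K, k * x * k⁻¹ = y} = (K ⊓ Subgroup.centralizer {x}).relIndex K := by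
  letI : MulAction K G := MulAction.compHom G ((MulAut.conj : G →* MulAut G).comp K.subtype)
  have hsm : ∀ (k : K) (y : G), k • y = (k : G) * y * (k : G)⁻¹ := fun k y => rfl
  have h1 := MulAction.index_stabilizer K x
  have h2 : MulAction.stabilizer K x = (K ⊓ Subgroup.centralizer {x}).subgroupOf K := by
    ext k
    rw [MulAction.mem_stabilizer_iff, hsm, Subgroup.mem_subgroupOf, Subgroup.mem_inf,
      Subgroup.mem_centralizer_singleton_iff, mul_inv_eq_iff_eq_mul]
    exact ⟨fun h => ⟨k.2, h⟩, fun h => h.2⟩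
  rw [Subgroup.relIndex, ← h2, h1, ← Nat.card_coe_set_eq]
  apply Nat.card_congr
  apply Equiv.subtypeEquivRight
  intro y
  rw [MulAction.mem_orbit_iff]
  exact ⟨fun ⟨k, hk, hy⟩ => ⟨⟨k, hk⟩, hy⟩, fun ⟨k, hy⟩ => ⟨k, k.2, hy⟩⟩

end orbit

variable {G : Type*} [Group G] [Finite G] {P : Sylow 3 G} {z : G} (h : XD P z)
include h

abbrev PC (P : Sylow 3 G) : Subgroup G := (P : Subgroup G) ⊔ Subgroup.centralizer ((P : Subgroup G) : Set G)

omit [Finite G] in
theorem XD.PC_le {u : G} (hu : u ∈ (P : Subgroup G)) : PC P ≤ XK z u := by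
  refine sup_le (fun y hy => ⟨(h.cen y hy).symm, h.comm y hy u hu⟩) ?_
  intro y hy
  rw [Subgroup.mem_centralizer_iff] at hy
  refine mem_XK.2 ⟨(hy z h.zP).symm, ?_⟩
  rw [← hy u hu]
  simp

omit [Finite G] h in
theorem PC_le_norm : PC P ≤ Subgroup.normalizer ((P : Subgroup G) : Set G) :=
  sup_le Subgroup.le_normalizer (Subgroup.centralizer_le_normalizer _)

theorem XD.card_class {x : G} (hx : x ∈ (P : Subgroup G)) (hx' : x ∉ Subgroup.zpowers z) :
    Nat.card {u : G // u ∈ (P : Subgroup G) ∧ IsConj u x} =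
      3 * (PC P).relIndex (Subgroup.normalizer ((P : Subgroup G) : Set G)) := by
  set N := Subgroup.normalizer ((P : Subgroup G) : Set G) with hN
  have h1 := card_conj_set N x
  have h2 : Nat.card {y : G // ∃ k ∈ N, k * x * k⁻¹ = y} = Nat.card {u : G // u ∈ (P : Subgroup G) ∧ IsConj u x} := by
    apply Nat.card_congr
    apply Equiv.subtypeEquivRight
    intro y
    constructor
    · rintro ⟨k, hk, rfl⟩
      exact ⟨(Subgroup.mem_normalizer_iff.1 hk x).1 hx, (isConj_iff.2 ⟨k, rfl⟩ : IsConj x _).symm⟩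
    · rintro ⟨hy, hc⟩
      obtain ⟨g, hg⟩ := isConj_iff.1 hc.symm
      exact h.fusion hx hx' hy hg
  have h3 : N ⊓ Subgroup.centralizer {x} = PC P ⊓ Subgroup.centralizer {x} := by
    apply le_antisymm
    · intro g hg
      refine ⟨?_, hg.2⟩
      apply h.semireg hx hx' hg.1
      have : g * x * g⁻¹ * x⁻¹ = 1 := by
        rw [mem_C.1 hg.2]; group
      rw [this]
      exact Subgroup.one_mem _
    · exact inf_le_inf_right _ PC_le_norm
  have h4 := card_conj_set (PC P) x
  have h5 : Nat.card {y : G // ∃ k ∈ PC P, k * x * k⁻¹ = y} = 3 := by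
    rw [← h.card_zp]
    apply Nat.card_congr
    refine Equiv.symm (Equiv.ofBijective (fun c : Subgroup.zpowers z => (⟨x * c, ?_⟩ :
      {y : G // ∃ k ∈ PC P, k * x * k⁻¹ = y})) ⟨?_, ?_⟩)
    · obtain ⟨p, hp, hpx⟩ := h.conj_mul hx hx' c.2
      exact ⟨p, Subgroup.mem_sup_left hp, hpx⟩
    · intro c d hcd
      have := congrArg Subtype.val hcd
      exact Subtype.ext (mul_left_cancel this)
    · rintro ⟨y, k, hk, rfl⟩
      have hk2 := (mem_XK.1 (h.PC_le hx hk)).2
      refine ⟨⟨_, hk2⟩, Subtype.ext ?_⟩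
      show x * (k * x * k⁻¹ * x⁻¹) = k * x * k⁻¹
      rw [← h.zp_cen hk2 (h.cen x hx)]; group
  have h6 := Subgroup.relIndex_mul_relIndex (PC P ⊓ Subgroup.centralizer {x}) (PC P) N inf_le_left PC_le_norm
  rw [← h2, h1, h3, ← h6, ← h4, h5]

omit [Finite G] h in
theorem not_zp_of_conj {u x : G} (hc : IsConj u x) (hx : ∀ g : G, g * x * g⁻¹ ∉ Subgroup.zpowers z) :
    u ∉ Subgroup.zpowers z := by
  obtain ⟨g, hg⟩ := isConj_iff.1 hc
  intro hu
  apply hx g⁻¹
  have : g⁻¹ * x * g⁻¹⁻¹ = u := by rw [← hg]; group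
  rw [this]; exact hu

/-- representatives of the noncentral classes -/
theorem XD.exists_X : ∃ X : Finset G, (∀ x ∈ X, x ∈ (P : Subgroup G) ∧ x ∉ Subgroup.zpowers z) ∧
    (∀ u ∈ (P : Subgroup G), u ∉ Subgroup.zpowers z → ∃! x, x ∈ X ∧ IsConj u x) ∧
    X.card * (PC P).relIndex (Subgroup.normalizer ((P : Subgroup G) : Set G)) = 8 := by
  classical
  have := Fintype.ofFinite G
  set T : Finset G := Finset.univ.filter (fun u => u ∈ (P : Subgroup G) ∧ u ∉ Subgroup.zpowers z) with hT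
  have hTm : ∀ u, u ∈ T ↔ u ∈ (P : Subgroup G) ∧ u ∉ Subgroup.zpowers z := fun u => by simp [hT]
  -- the classes
  set K : Finset (ConjClasses G) := T.image ConjClasses.mk with hK
  have hKm : ∀ c ∈ K, ∃ u ∈ T, ConjClasses.mk u = c := fun c hc => by
    rw [hK, Finset.mem_image] at hc; exact hc
  choose! r hr hr2 using hKm
  have hrinj : Set.InjOn r K := fun c hc d hd hcd => by rw [← hr2 c hc, ← hr2 d hd, hcd]
  refine ⟨K.image r, ?_, ?_, ?_⟩
  · intro x hx
    obtain ⟨c, hc, rfl⟩ := Finset.mem_image.1 hx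
    exact (hTm _).1 (hr c hc)
  · intro u hu hu'
    have huK : ConjClasses.mk u ∈ K := Finset.mem_image_of_mem _ ((hTm u).2 ⟨hu, hu'⟩)
    refine ⟨r (ConjClasses.mk u), ⟨Finset.mem_image_of_mem _ huK, ?_⟩, ?_⟩
    · exact (ConjClasses.mk_eq_mk_iff_isConj.1 (hr2 _ huK)).symm
    · rintro y ⟨hy, hyc⟩
      obtain ⟨c, hc, rfl⟩ := Finset.mem_image.1 hy
      have : ConjClasses.mk u = c := by
        rw [← hr2 c hc]
        exact ConjClasses.mk_eq_mk_iff_isConj.2 hyc
      rw [this]
  · rw [Finset.card_image_of_injOn hrinj]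
    have h1 : T.card = ∑ c ∈ K, (T.filter (fun u => ConjClasses.mk u = c)).card :=
      Finset.card_eq_sum_card_image ConjClasses.mk T
    have h2 : ∀ c ∈ K, (T.filter (fun u => ConjClasses.mk u = c)).card =
        3 * (PC P).relIndex (Subgroup.normalizer ((P : Subgroup G) : Set G)) := by
      intro c hc
      obtain ⟨hx, hx'⟩ := (hTm _).1 (hr c hc)
      rw [← h.card_class hx hx', Nat.card_eq_fintype_card, Fintype.card_subtype]
      congr 1
      ext u
      simp only [Finset.mem_filter, hTm, Finset.mem_univ, true_and]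
      constructor
      · rintro ⟨⟨hu, hu'⟩, huc⟩
        refine ⟨hu, ConjClasses.mk_eq_mk_iff_isConj.1 ?_⟩
        rw [huc, hr2 c hc]
      · rintro ⟨hu, huc⟩
        refine ⟨⟨hu, ?_⟩, ?_⟩
        · exact not_zp_of_conj huc (fun g hg => h.not_conj_central hx hx' hg)
        · rw [← hr2 c hc]
          exact ConjClasses.mk_eq_mk_iff_isConj.2 huc
    rw [Finset.sum_congr rfl h2, Finset.sum_const, smul_eq_mul] at h1
    have h3 : T.card = 24 := by
      have e1 : (Finset.univ.filter (fun u => u ∈ (P : Subgroup G))).card = 27 := by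
        rw [← h.card, Nat.card_eq_fintype_card, Fintype.card_subtype]
      have e2 : (Finset.univ.filter (fun u => u ∈ Subgroup.zpowers z)).card = 3 := by
        rw [← h.card_zp, Nat.card_eq_fintype_card, Fintype.card_subtype]
      have e3 : Finset.univ.filter (fun u => u ∈ Subgroup.zpowers z) ⊆
          Finset.univ.filter (fun u => u ∈ (P : Subgroup G)) := by
        intro u hu
        rw [Finset.mem_filter] at hu ⊢
        exact ⟨hu.1, h.zp_le hu.2⟩
      have e4 : T = Finset.univ.filter (fun u => u ∈ (P : Subgroup G)) \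
          Finset.univ.filter (fun u => u ∈ Subgroup.zpowers z) := by
        ext u; simp [hTm]
      rw [e4, Finset.card_sdiff_of_subset e3, e1, e2]
    rw [h3] at h1
    have h4 : K.card * (3 * (PC P).relIndex (Subgroup.normalizer ((P : Subgroup G) : Set G))) =
      3 * (K.card * (PC P).relIndex (Subgroup.normalizer ((P : Subgroup G) : Set G))) := by ring
    rw [h4] at h1
    omega

/-- if the inertial index is even the noncentral elements are real -/
theorem XD.real_of_even (he : Even ((PC P).relIndex (Subgroup.normalizer ((P : Subgroup G) : Set G)))) {u : G}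
    (hu : u ∈ (P : Subgroup G)) (hu' : u ∉ Subgroup.zpowers z) : IsConj u u⁻¹ := by
  set N := Subgroup.normalizer ((P : Subgroup G) : Set G) with hN
  have hnorm : ((PC P).subgroupOf N).Normal := by
    constructor
    intro g hg n
    rw [Subgroup.mem_subgroupOf] at hg ⊢
    have hu2 : (n : G)⁻¹ * u * (n : G) ∈ (P : Subgroup G) := by
      have := (Subgroup.mem_normalizer_iff.1 (N.inv_mem n.2) u).1 hu
      simpa using this
    have h1 := (mem_XK.1 (h.PC_le hu2 hg)).2
    apply h.semireg hu hu' (N.mul_mem (N.mul_mem n.2 g.2) (N.inv_mem n.2))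
    have h2 : (n : G) * g * (n : G)⁻¹ * u * ((n : G) * g * (n : G)⁻¹)⁻¹ * u⁻¹ =
        n * (g * ((n : G)⁻¹ * u * n) * (g : G)⁻¹ * ((n : G)⁻¹ * u * n)⁻¹) * (n : G)⁻¹ := by group
    show (n : G) * g * (n : G)⁻¹ * u * ((n : G) * g * (n : G)⁻¹)⁻¹ * u⁻¹ ∈ Subgroup.zpowers z
    rw [h2]
    have h3 := h.zp_cen h1 (h.nc n n.2).symm
    rw [← h3]
    simpa using h1
  have h2 : 2 ∣ Nat.card (N ⧸ (PC P).subgroupOf N) := he.two_dvd
  haveI : Fact (Nat.Prime 2) := ⟨Nat.prime_two⟩
  obtain ⟨t', ht'⟩ := exists_prime_orderOf_dvd_card' 2 h2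
  obtain ⟨t, rfl⟩ := QuotientGroup.mk_surjective t'
  have ht1 : (t : G) ∉ PC P := by
    intro h3
    have h4 : (QuotientGroup.mk t : N ⧸ (PC P).subgroupOf N) = 1 := (QuotientGroup.eq_one_iff _).2 h3
    rw [h4, orderOf_one] at ht'
    omega
  have ht2 : (t : G) * t ∈ PC P := by
    have h3 : (QuotientGroup.mk t : N ⧸ (PC P).subgroupOf N) ^ 2 = 1 := by
      rw [← ht']; exact pow_orderOf_eq_one _
    rw [← QuotientGroup.mk_pow, QuotientGroup.eq_one_iff, Subgroup.mem_subgroupOf] at h3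
    rw [← sq]; exact h3
  set v := (t : G) * u * (t : G)⁻¹ with hv
  have hvP : v ∈ (P : Subgroup G) := (Subgroup.mem_normalizer_iff.1 t.2 u).1 hu
  have hc := (mem_XK.1 (h.PC_le hu ht2)).2
  set c := (t : G) * t * u * ((t : G) * t)⁻¹ * u⁻¹ with hcdef
  have hd := h.comm v hvP u hu
  have hw : u * v ∈ Subgroup.zpowers z := by
    by_contra hcon
    apply ht1
    apply h.semireg ((P : Subgroup G).mul_mem hu hvP) hcon t.2
    have e1 : (t : G) * v * (t : G)⁻¹ = c * u := by rw [hcdef, hv]; group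
    have hcv := h.zp_cen hc (h.cen v hvP)
    have e2 : (t : G) * (u * v) * (t : G)⁻¹ * (u * v)⁻¹ = c * (v * u * v⁻¹ * u⁻¹) := by
      calc (t : G) * (u * v) * (t : G)⁻¹ * (u * v)⁻¹ = v * ((t : G) * v * (t : G)⁻¹) * v⁻¹ * u⁻¹ := by
            rw [hv]; group
        _ = (v * c) * u * v⁻¹ * u⁻¹ := by rw [e1]; group
        _ = c * (v * u * v⁻¹ * u⁻¹) := by rw [← hcv]; group
    rw [e2]
    exact Subgroup.mul_mem _ hc hd
  have hui : u⁻¹ ∉ Subgroup.zpowers z := fun h3 => hu' (by simpa using Subgroup.inv_mem _ h3)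
  obtain ⟨p, hp, hpu⟩ := h.conj_mul ((P : Subgroup G).inv_mem hu) hui hw
  have e3 : v = u⁻¹ * (u * v) := by group
  have h5 : IsConj u v := isConj_iff.2 ⟨t, rfl⟩
  have h6 : IsConj u⁻¹ v := isConj_iff.2 ⟨p, by rw [hpu, ← e3]⟩
  exact h5.trans h6.symm

/-- the data with representatives of the noncentral classes, all real -/
structure XS {G : Type*} [Group G] (P : Sylow 3 G) (z : G) (X : Finset G) : Prop where
  toXD : XD P z
  sub : ∀ x ∈ X, x ∈ (P : Subgroup G) ∧ x ∉ Subgroup.zpowers z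
  rep : ∀ u ∈ (P : Subgroup G), u ∉ Subgroup.zpowers z → ∃! x, x ∈ X ∧ IsConj u x
  real : ∀ u ∈ (P : Subgroup G), u ∉ Subgroup.zpowers z → IsConj u u⁻¹

end Cfsg.Agent.Lib.H16XA
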