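import Cfsg.Agent.Lib.H16XE

/-!
# Contributions of sections to the principal block, continued (helper16)
-/

set_option autoImplicit false
set_option linter.all false

namespace Cfsg.Agent.Lib.H16XE

open Cfsg Cfsg.Agent.Lib Cfsg.Agent.Lib.BlockRing Cfsg.Agent.Lib.BlockGA Cfsg.Agent.Lib.BlockIdem
open Cfsg.Agent.Lib.BlockPair Cfsg.Agent.Lib.Contrib Cfsg.Agent.Lib.BlockSection
open Cfsg.Agent.Lib.CharBasic Cfsg.Agent.Lib.H25BpI
open Cfsg.Agent.Lib.Subsec (Cz mem_Cz fs mem_fs sum_fs al al_eq D_reg D_not_reg)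
open Cfsg.Agent.Lib.H16XA (XD XS)
open scoped ComplexConjugate

universe u

variable {p : ℕ} [hp : Fact p.Prime] {M : Ideal AlgInt} {G : Type u} [Group G] [Finite G]

theorem cn_one (χ : G → ℂ) (ψ : IrrCharacter G) : cn p 1 χ (ψ : G → ℂ) = contrib p χ (ψ : G → ℂ) := by
  have := Fintype.ofFinite G
  have := Fintype.ofFinite (Cz (1 : G))
  have htop : Cz (1 : G) = ⊤ := by
    ext g
    rw [mem_Cz]
    simp
  unfold cn contrib
  rw [J_eq, pair_def]
  have h1 : Nat.card (Cz (1 : G)) = Nat.card G := by rw [htop]; exact Subgroup.card_top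
  rw [h1]
  congr 1
  have hm : ∀ g : G, g ∈ Cz (1 : G) := fun g => by rw [htop]; trivial
  refine Fintype.sum_equiv (⟨fun s => (s : G), fun g => ⟨g, hm g⟩, fun _ => rfl, fun _ => rfl⟩ : Cz (1 : G) ≃ G) _ _ ?_
  intro s
  simp only [Equiv.coe_fn_mk]
  rw [Subgroup.orderOf_coe, ψ.2.inv, one_mul]

theorem D_val (hM : IsPModular p M) {u : G} {k : ℕ} (hu : orderOf u = p ^ k) {χ : IrrCharacter G}
    (hχ : χ ∈ principalBlock M G) (y : Cz u) :
    BlockCount.D p u (principalBlock M (Cz u)) (χ : G → ℂ) y = if p ∣ orderOf y then 0 else (χ : G → ℂ) (u * (y : G)) := by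
  split_ifs with hy
  · exact D_not_reg hy
  · rw [D_reg hy]
    exact blockPart_principal_section hM hu (fun g => mem_Cz) hy hχ

theorem al_eq_cn (hM : IsPModular p M) {u : G} {k : ℕ} (hu : orderOf u = p ^ k) {χ ψ : IrrCharacter G}
    (hχ : χ ∈ principalBlock M G) (hψ : ψ ∈ principalBlock M G) :
    al p u (principalBlock M (Cz u)) (χ : G → ℂ) (ψ : G → ℂ) =
      (p : ℂ) ^ blockDefect p (principalBlock M (Cz u)) * cn p u (χ : G → ℂ) (ψ : G → ℂ) := by
  have := Fintype.ofFinite G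
  have := Fintype.ofFinite (Cz u)
  rw [al_eq]
  congr 1
  unfold classInner cn
  rw [J_eq]
  congr 1
  refine Finset.sum_congr rfl fun y _ => ?_
  rw [D_val hM hu hχ, D_val hM hu hψ]
  split_ifs
  · rw [zero_mul]
  · rfl

theorem ind_principal (hM : IsPModular p M) {u : G} (hu : ∃ k, orderOf u = p ^ k) :
    IsInducedBlock M (Cz u) (principalBlock M (Cz u)) (principalBlock M G) := by
  obtain ⟨B, hB⟩ := DefClassR.induced_centralizer hM hu (BlockThird.isPBlock_principal (M := M) (G := Cz u))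
  have h1 := (BlockThird.induced_principal_iff hM hB).1 rfl
  rwa [h1] at hB

/-- for a normal `p'`-subgroup of `p`-power index the members are the `p`-regular elements -/
theorem mem_of_reg {H : Type u} [Group H] [Finite H] {N : Subgroup H} [N.Normal] (hN : ¬ p ∣ Nat.card N) {j : ℕ}
    (hj : N.index = p ^ j) (s : H) : s ∈ N ↔ ¬ p ∣ orderOf s := by
  constructor
  · intro hs h
    apply hN
    have h1 : orderOf (⟨s, hs⟩ : N) = orderOf s := Subgroup.orderOf_mk _ _
    rw [← h1] at h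
    exact h.trans (orderOf_dvd_natCard _)
  · intro hs
    rw [← QuotientGroup.eq_one_iff, ← orderOf_eq_one_iff]
    have h1 : orderOf (QuotientGroup.mk s : H ⧸ N) ∣ p ^ j := by
      rw [← hj]
      exact orderOf_dvd_natCard _
    have h2 : orderOf (QuotientGroup.mk s : H ⧸ N) ∣ orderOf s := orderOf_map_dvd (QuotientGroup.mk' N) s
    obtain ⟨i, -, hi⟩ := (Nat.dvd_prime_pow hp.out).1 h1
    rcases Nat.eq_zero_or_pos i with h3 | h3
    · rw [hi, h3, pow_zero]
    · exfalso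
      apply hs
      refine dvd_trans ?_ h2
      rw [hi]
      exact dvd_pow_self p h3.ne'

theorem cn_nil (hM : IsPModular p M) {u : G} {k : ℕ} (hu : orderOf u = p ^ k) {N : Subgroup (Cz u)} [N.Normal]
    (hN : ¬ p ∣ Nat.card N) {j : ℕ} (hj : N.index = p ^ j) {χ ψ : IrrCharacter G}
    (hχ : χ ∈ principalBlock M G) (hψ : ψ ∈ principalBlock M G) :
    cn p u (χ : G → ℂ) (ψ : G → ℂ) = (χ : G → ℂ) u * conj ((ψ : G → ℂ) u) / (p : ℂ) ^ j := by
  classical
  have := Fintype.ofFinite G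
  have := Fintype.ofFinite (Cz u)
  unfold cn
  rw [J_eq]
  have h1 : ∀ s : Cz u, (if p ∣ orderOf s then (0 : ℂ) else
      (χ : G → ℂ) (u * (s : G)) * conj ((ψ : G → ℂ) (u * (s : G)))) =
      if s ∈ N then (χ : G → ℂ) u * conj ((ψ : G → ℂ) u) else 0 := by
    intro s
    by_cases hs : s ∈ N
    · rw [if_pos hs, if_neg ((mem_of_reg hN hj s).1 hs), eq_of_mem_core hM hu (fun g => mem_Cz) hN hs hχ,
        eq_of_mem_core hM hu (fun g => mem_Cz) hN hs hψ]
    · rw [if_neg hs, if_pos]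
      by_contra h2
      exact hs ((mem_of_reg hN hj s).2 h2)
  rw [Finset.sum_congr rfl fun s _ => h1 s, ← Finset.sum_filter, Finset.sum_const, nsmul_eq_mul]
  have h2 : (Finset.univ.filter (fun s : Cz u => s ∈ N)).card = Nat.card N := by
    rw [Nat.card_eq_fintype_card, Fintype.card_subtype]
  have h3 : (Nat.card (Cz u) : ℂ) = (Nat.card N : ℂ) * (p : ℂ) ^ j := by
    have := N.card_mul_index
    rw [hj] at this
    exact_mod_cast this.symm
  have h4 : (Nat.card N : ℂ) ≠ 0 := Nat.cast_ne_zero.mpr Nat.card_pos.ne'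
  have h5 : (p : ℂ) ≠ 0 := Nat.cast_ne_zero.mpr hp.out.ne_zero
  rw [h2, h3]
  field_simp

/-! ### the extraspecial situation -/

/-- representatives of the classes of `3`-elements -/
noncomputable def RR (z : G) (X : Finset G) : Finset G :=
  haveI : DecidableEq G := Classical.decEq _
  insert 1 (insert z (insert z⁻¹ X))

theorem mem_RR {z : G} {X : Finset G} {x : G} : x ∈ RR z X ↔ x = 1 ∨ x = z ∨ x = z⁻¹ ∨ x ∈ X := by
  simp [RR]

section

variable {P : Sylow 3 G} {z : G} {X : Finset G} (h : XS P z X)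
include h

theorem sum_RR {A : Type*} [AddCommMonoid A] (f : G → A) :
    ∑ x ∈ RR z X, f x = f 1 + (f z + (f z⁻¹ + ∑ x ∈ X, f x)) := by
  classical
  have hz := h.toXD
  have hX : ∀ x ∈ X, x ∉ Subgroup.zpowers z := fun x hx => (h.sub x hx).2
  have h1 : (1 : G) ∉ X := fun h1 => hX _ h1 (Subgroup.one_mem _)
  have h2 : z ∉ X := fun h1 => hX _ h1 (Subgroup.mem_zpowers z)
  have h3 : z⁻¹ ∉ X := fun h1 => hX _ h1 (Subgroup.inv_mem _ (Subgroup.mem_zpowers z))
  have h4 := hz.z1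
  have h5 := hz.z_ne_inv
  unfold RR
  rw [Finset.sum_insert, Finset.sum_insert, Finset.sum_insert]
  · exact h3
  · rw [Finset.mem_insert]; rintro (h6 | h6)
    · exact h5 h6
    · exact h2 h6
  · rw [Finset.mem_insert, Finset.mem_insert]; rintro (h6 | h6 | h6)
    · exact h4 h6.symm
    · exact h4 (by rw [← inv_eq_one]; exact h6.symm)
    · exact h1 h6

theorem RR_P {x : G} (hx : x ∈ RR z X) : x ∈ (P : Subgroup G) := by
  rcases mem_RR.1 hx with rfl | rfl | rfl | hx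
  · exact (P : Subgroup G).one_mem
  · exact h.toXD.zP
  · exact (P : Subgroup G).inv_mem h.toXD.zP
  · exact (h.sub x hx).1

omit [Finite G] h in
theorem pe_of_P {x : G} [Finite G] (hx : x ∈ (P : Subgroup G)) : ∃ k : ℕ, orderOf x = 3 ^ k := by
  haveI : Fact (Nat.Prime 3) := ⟨Nat.prime_three⟩
  obtain ⟨k, hk⟩ := (IsPGroup.iff_orderOf.1 P.2) ⟨x, hx⟩
  exact ⟨k, by rw [← hk, Subgroup.orderOf_mk]⟩

theorem RR_pe : ∀ x ∈ RR z X, ∃ k : ℕ, orderOf x = 3 ^ k := fun x hx => pe_of_P (RR_P h hx)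

theorem RR_uniq {x y : G} (hx : x ∈ RR z X) (hy : y ∈ RR z X) (hc : IsConj x y) : x = y := by
  have hz := h.toXD
  have key : ∀ a b : G, a ∈ RR z X → b ∈ RR z X → IsConj a b → a ∈ Subgroup.zpowers z → a = b := by
    intro a b ha hb hab haz
    have hbP := RR_P h hb
    obtain ⟨c, hc⟩ := isConj_iff.1 hab
    rcases hz.mem_zp.1 haz with rfl | rfl | rfl
    · rw [mul_one, mul_inv_cancel] at hc; exact hc
    · exact (hz.eq_of_conj hbP hc).symm
    · have h1 : c * z * c⁻¹ = b⁻¹ := by rw [← hc]; group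
      have h2 := hz.eq_of_conj ((P : Subgroup G).inv_mem hbP) h1
      rw [← h2, inv_inv]
  by_cases hx' : x ∈ Subgroup.zpowers z
  · exact key x y hx hy hc hx'
  · by_cases hy' : y ∈ Subgroup.zpowers z
    · exact (key y x hy hx hc.symm hy').symm
    · have hxX : x ∈ X := by
        rcases mem_RR.1 hx with h1 | h1 | h1 | h1
        · exact absurd (hz.mem_zp.2 (Or.inl h1)) hx'
        · exact absurd (hz.mem_zp.2 (Or.inr (Or.inl h1))) hx'
        · exact absurd (hz.mem_zp.2 (Or.inr (Or.inr h1))) hx'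
        · exact h1
      have hyX : y ∈ X := by
        rcases mem_RR.1 hy with h1 | h1 | h1 | h1
        · exact absurd (hz.mem_zp.2 (Or.inl h1)) hy'
        · exact absurd (hz.mem_zp.2 (Or.inr (Or.inl h1))) hy'
        · exact absurd (hz.mem_zp.2 (Or.inr (Or.inr h1))) hy'
        · exact h1
      obtain ⟨w, -, hw⟩ := h.rep x (RR_P h hx) hx'
      exact (hw x ⟨hxX, IsConj.refl x⟩).trans (hw y ⟨hyX, hc⟩).symm

theorem RR_rep : ∀ g : G, (∃ k : ℕ, orderOf g = 3 ^ k) → ∃! x, x ∈ RR z X ∧ IsConj g x := by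
  haveI : Fact (Nat.Prime 3) := ⟨Nat.prime_three⟩
  intro g hg
  have hgp : IsPGroup 3 (Subgroup.zpowers g) := by
    obtain ⟨k, hk⟩ := hg
    apply IsPGroup.of_card (n := k)
    rw [Nat.card_zpowers, hk]
  obtain ⟨Q, hQ⟩ := hgp.exists_le_sylow
  obtain ⟨c, hc⟩ := MulAction.exists_smul_eq G Q P
  have hy : c * g * c⁻¹ ∈ (P : Subgroup G) := by
    rw [← hc, Sylow.coe_subgroup_smul]
    exact ⟨g, hQ (Subgroup.mem_zpowers g), rfl⟩
  have hgy : IsConj g (c * g * c⁻¹) := isConj_iff.2 ⟨c, rfl⟩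
  have hex : ∃ x, x ∈ RR z X ∧ IsConj g x := by
    by_cases hyz : c * g * c⁻¹ ∈ Subgroup.zpowers z
    · refine ⟨_, ?_, hgy⟩
      rcases h.toXD.mem_zp.1 hyz with h1 | h1 | h1 <;> rw [h1] <;> simp [mem_RR]
    · obtain ⟨x, ⟨hx, hxc⟩, -⟩ := h.rep _ hy hyz
      exact ⟨x, mem_RR.2 (Or.inr (Or.inr (Or.inr hx))), hgy.trans hxc⟩
  obtain ⟨x, hx, hxc⟩ := hex
  exact ⟨x, ⟨hx, hxc⟩, fun y hy' => RR_uniq h hy'.1 hx (hy'.2.symm.trans hxc)⟩

theorem fact_G : (Nat.card G).factorization 3 = 3 := by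
  haveI : Fact (Nat.Prime 3) := ⟨Nat.prime_three⟩
  have h1 := P.card_eq_multiplicity
  have h2 := h.toXD.card
  rw [h1] at h2
  exact Nat.pow_right_injective (le_refl 2 |>.trans (by norm_num)) (by simpa using h2 : 3 ^ _ = 3 ^ 3)

end

end Cfsg.Agent.Lib.H16XE
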