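import Cfsg.Agent.Lib.H16XF
import Cfsg.Agent.Lib.BrauerApp

/-!
# Eisenstein integers and components of characters under a central element of order 3 (helper16)
-/

set_option autoImplicit false
set_option linter.all false

namespace Cfsg.Agent.Lib.H16XG

open Cfsg Cfsg.Agent.Lib Cfsg.Agent.Lib.BlockRing Cfsg.Agent.Lib.BlockGA
open Cfsg.Agent.Lib.CharBasic
open MonoidAlgebra (single)
open scoped ComplexConjugate

universe u v

/-! ### Eisenstein integers -/

/-- the primitive cube root of unity -/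
noncomputable def om : ℂ := ⟨-1/2, Real.sqrt 3 / 2⟩

theorem om_re : om.re = -1/2 := rfl
theorem om_im : om.im = Real.sqrt 3 / 2 := rfl

theorem om_sq : om ^ 2 = -1 - om := by
  have h3 : Real.sqrt 3 * Real.sqrt 3 = 3 := Real.mul_self_sqrt (by norm_num)
  rw [sq]
  apply Complex.ext
  · rw [Complex.mul_re, om_re, om_im, Complex.sub_re, Complex.neg_re, Complex.one_re, om_re]
    linarith
  · rw [Complex.mul_im, om_re, om_im, Complex.sub_im, Complex.neg_im, Complex.one_im, om_im]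
    ring

theorem om_conj : conj om = -1 - om := by
  apply Complex.ext
  · rw [Complex.conj_re, om_re, Complex.sub_re, Complex.neg_re, Complex.one_re, om_re]; norm_num
  · rw [Complex.conj_im, om_im, Complex.sub_im, Complex.neg_im, Complex.one_im, om_im]; ring

theorem om_cube : om ^ 3 = 1 := by
  rw [pow_succ, om_sq]
  have := om_sq
  linear_combination -this

theorem om_ne_one : om ≠ 1 := by
  intro h
  have := congrArg Complex.re h
  rw [om_re, Complex.one_re] at this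
  norm_num at this

theorem one_add_om_add : 1 + om + om ^ 2 = 0 := by rw [om_sq]; ring

theorem cube_root {μ : ℂ} (h : μ ^ 3 = 1) : μ = 1 ∨ μ = om ∨ μ = om ^ 2 := by
  have h1 : (μ - 1) * ((μ - om) * (μ - om ^ 2)) = 0 := by
    have e1 : om * om ^ 2 = 1 := by rw [← pow_succ', om_cube]
    have e2 := one_add_om_add
    linear_combination h + (μ ^ 2 - μ ) * (-1 : ℂ) * e2 + (μ - 1) * e1
  rcases mul_eq_zero.1 h1 with h2 | h2
  · left; linear_combination h2
  · rcases mul_eq_zero.1 h2 with h3 | h3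
    · right; left; linear_combination h3
    · right; right; linear_combination h3

/-- the Eisenstein integers -/
noncomputable def EZ : Subring ℂ where
  carrier := {w | ∃ a b : ℤ, w = a + b * om}
  one_mem' := ⟨1, 0, by simp⟩
  zero_mem' := ⟨0, 0, by simp⟩
  add_mem' := by
    rintro x y ⟨a, b, rfl⟩ ⟨c, d, rfl⟩
    exact ⟨a + c, b + d, by push_cast; ring⟩
  neg_mem' := by
    rintro x ⟨a, b, rfl⟩
    exact ⟨-a, -b, by push_cast; ring⟩
  mul_mem' := by
    rintro x y ⟨a, b, rfl⟩ ⟨c, d, rfl⟩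
    refine ⟨a * c - b * d, a * d + b * c - b * d, ?_⟩
    push_cast
    have := om_sq
    linear_combination (b * d : ℂ) * this

theorem mem_EZ {w : ℂ} : w ∈ EZ ↔ ∃ a b : ℤ, w = a + b * om := Iff.rfl

theorem om_mem : om ∈ EZ := ⟨0, 1, by simp⟩

theorem conj_mem {w : ℂ} (h : w ∈ EZ) : conj w ∈ EZ := by
  obtain ⟨a, b, rfl⟩ := h
  refine ⟨a - b, -b, ?_⟩
  rw [map_add, map_mul, om_conj, map_intCast, map_intCast]
  push_cast; ring

theorem normSq_EZ (a b : ℤ) : Complex.normSq (a + b * om) = ((a * a - a * b + b * b : ℤ) : ℝ) := by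
  have h3 : Real.sqrt 3 * Real.sqrt 3 = 3 := Real.mul_self_sqrt (by norm_num)
  rw [Complex.normSq_apply]
  simp only [Complex.add_re, Complex.add_im, Complex.mul_re, Complex.mul_im, Complex.intCast_re, Complex.intCast_im,
    om_re, om_im]
  push_cast
  linear_combination ((b : ℝ) * b / 4) * h3

theorem normSq_int {w : ℂ} (h : w ∈ EZ) : ∃ n : ℤ, Complex.normSq w = n := by
  obtain ⟨a, b, rfl⟩ := h
  exact ⟨_, normSq_EZ a b⟩

theorem one_le_normSq {w : ℂ} (h : w ∈ EZ) (h0 : w ≠ 0) : 1 ≤ Complex.normSq w := by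
  obtain ⟨n, hn⟩ := normSq_int h
  have h1 : 0 < Complex.normSq w := Complex.normSq_pos.2 h0
  rw [hn] at h1 ⊢
  have h2 : 0 < n := by exact_mod_cast h1
  exact_mod_cast h2

/-- a real Eisenstein integer is an integer -/
theorem int_of_real {w : ℂ} (h : w ∈ EZ) (hr : conj w = w) : ∃ n : ℤ, w = n := by
  obtain ⟨a, b, rfl⟩ := h
  have h1 : ((a : ℂ) + b * om).im = 0 := Complex.conj_eq_iff_im.1 hr
  simp only [Complex.add_im, Complex.mul_im, Complex.intCast_re, Complex.intCast_im, om_im] at h1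
  have h3 : (0 : ℝ) < Real.sqrt 3 := Real.sqrt_pos.2 (by norm_num)
  have h4 : (b : ℝ) * Real.sqrt 3 = 0 := by linarith
  have h5 : (b : ℝ) = 0 := by
    rcases mul_eq_zero.1 h4 with h | h
    · exact h
    · linarith
  have h6 : b = 0 := by exact_mod_cast h5
  exact ⟨a, by rw [h6]; simp⟩

theorem sum_root {μ : ℂ} (h : μ ^ 3 = 1) : 1 + μ + μ ^ 2 = if μ = 1 then 3 else 0 := by
  split_ifs with h1
  · rw [h1]; norm_num
  · have h2 : (μ - 1) * (1 + μ + μ ^ 2) = 0 := by linear_combination h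
    rcases mul_eq_zero.1 h2 with h3 | h3
    · exact absurd (by linear_combination h3) h1
    · exact h3

/-! ### components -/

variable {C : Type u} [Group C] [Finite C]

/-- the component of `θ` at which the central element `t` acts as `ε` -/
noncomputable def cp (t : C) (ε : ℂ) (θ : C → ℂ) : C → ℂ :=
  fun g => (θ g + ε⁻¹ * θ (t * g) + (ε⁻¹) ^ 2 * θ (t * (t * g))) / 3

theorem irr_central {t : C} (ht : ∀ g, t * g = g * t) (η : IrrCharacter C) (h3 : t ^ 3 = 1) :
    ∃ δ : ℂ, δ ^ 3 = 1 ∧ ∀ g, (η : C → ℂ) (t * g) = δ * (η : C → ℂ) g := by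
  have hc : single t (1 : ℂ) ∈ Subalgebra.center ℂ (GA C) := by
    rw [Subalgebra.mem_center_iff]
    intro a
    induction a using MonoidAlgebra.induction_linear with
    | zero => simp
    | add x y hx hy => rw [add_mul, mul_add, hx, hy]
    | single g a =>
      rw [MonoidAlgebra.single_mul_single, MonoidAlgebra.single_mul_single, one_mul, mul_one, ht]
  refine ⟨omega (η : C → ℂ) (single t 1), ?_, fun g => ?_⟩
  · have h := omega_pow η.2 hc 3
    rw [MonoidAlgebra.single_pow, one_pow, h3, ← MonoidAlgebra.one_def, omega_one η.2.one_ne_zero] at h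
    exact h.symm
  · have h := lin_mul_single η.2 hc g
    rw [MonoidAlgebra.single_mul_single, lin_single, one_mul, one_mul] at h
    exact h

theorem cp_irr {t : C} (ht : ∀ g, t * g = g * t) (h3 : t ^ 3 = 1) {ε : ℂ} (hε : ε ^ 3 = 1) (η : IrrCharacter C) :
    cp t ε (η : C → ℂ) = (η : C → ℂ) ∨ cp t ε (η : C → ℂ) = 0 := by
  obtain ⟨δ, hδ, hη⟩ := irr_central ht η h3
  have hε0 : ε ≠ 0 := by rintro rfl; norm_num at hε
  have hx : (ε⁻¹ * δ) ^ 3 = 1 := by rw [mul_pow, inv_pow, hε, hδ]; norm_num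
  have h1 := sum_root hx
  have h2 : ∀ g, cp t ε (η : C → ℂ) g = (1 + (ε⁻¹ * δ) + (ε⁻¹ * δ) ^ 2) / 3 * (η : C → ℂ) g := by
    intro g
    unfold cp
    simp only [hη]; ring
  by_cases h4 : ε⁻¹ * δ = 1
  · left; funext g
    rw [h2, h1, if_pos h4]; ring
  · right; funext g
    rw [h2, h1, if_neg h4]; simp

theorem cp_gen {t : C} (ht : ∀ g, t * g = g * t) (h3 : t ^ 3 = 1) {ε : ℂ} (hε : ε ^ 3 = 1) {θ : C → ℂ}
    (hθ : IsGeneralizedCharacter C θ) : IsGeneralizedCharacter C (cp t ε θ) := by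
  have := Fintype.ofFinite C
  obtain ⟨c, -, hc⟩ := hθ.exists_coeff
  have h1 : cp t ε θ = ∑ η : IrrCharacter C, (c η : ℂ) • cp t ε (η : C → ℂ) := by
    funext g
    unfold cp
    rw [hc]
    simp only [Finset.sum_apply, Pi.smul_apply, smul_eq_mul, Finset.mul_sum, ← Finset.sum_add_distrib,
      Finset.sum_div]
    refine Finset.sum_congr rfl fun η _ => ?_
    ring
  rw [h1]
  refine isGeneralized_sum _ _ fun η _ => ?_
  apply IsGeneralizedCharacter.intCast_smul
  rcases cp_irr ht h3 hε η with h2 | h2 <;> rw [h2]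
  · exact η.2.isGeneralized
  · exact isGeneralized_zero

/-- the value at `t g` in terms of the components -/
theorem cp_sum (t : C) (θ : C → ℂ) (h3 : t ^ 3 = 1) (g : C) :
    θ (t * g) = cp t 1 θ g + om * cp t om θ g + om ^ 2 * cp t (om ^ 2) θ g := by
  have e3 := om_cube
  have e0 : om ≠ 0 := by rintro h; rw [h] at e3; norm_num at e3
  have e1 : om⁻¹ = om ^ 2 := by
    apply inv_eq_of_mul_eq_one_right
    rw [← pow_succ']; exact e3
  have e2 : (om ^ 2)⁻¹ = om := by rw [← e1, inv_inv]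
  have e4 := one_add_om_add
  unfold cp
  rw [e1, e2, inv_one]
  linear_combination (-(θ g / 3)) * e4 - (2 * θ (t * g) / 3) * e3 - (θ (t * (t * g)) / 3) * (e4 + (om ^ 2 + om) * e3)

theorem cp_sum' (t : C) (θ : C → ℂ) (h3 : t ^ 3 = 1) (g : C) :
    θ (t * g) = ∑ j ∈ Finset.range 3, om ^ j * cp t (om ^ j) θ g := by
  rw [cp_sum t θ h3 g, Finset.sum_range_succ, Finset.sum_range_succ, Finset.sum_range_one]
  simp

theorem om_pow_mem (j : ℕ) : om ^ j ∈ EZ := EZ.pow_mem om_mem j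

theorem om_pow_cube (j : ℕ) : (om ^ j) ^ 3 = 1 := by
  rw [← pow_mul, mul_comm, pow_mul, om_cube, one_pow]

/-- sums over a subgroup of `θ(zs) φ(zs)*` -/
theorem sum_EZ {z : C} (hz : ∀ g, z * g = g * z) (h3 : z ^ 3 = 1) (N : Subgroup C) [Fintype N] {θ φ : C → ℂ}
    (hθ : IsGeneralizedCharacter C θ) (hφ : IsGeneralizedCharacter C φ) :
    ∃ w ∈ EZ, ∑ s : N, θ (z * (s : C)) * conj (φ (z * (s : C))) = (Nat.card N : ℂ) * w := by
  have h1 : ∀ j k : ℕ, ∃ n : ℤ, ∑ s : N, cp z (om ^ j) θ (s : C) * conj (cp z (om ^ k) φ (s : C)) =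
      (Nat.card N : ℂ) * n := by
    intro j k
    have e1 := (cp_gen hz h3 (om_pow_cube j) hθ).restrict N
    have e2 := (cp_gen hz h3 (om_pow_cube k) hφ).restrict N
    obtain ⟨n, hn⟩ := e1.classInner_int e2
    refine ⟨n, ?_⟩
    rw [← hn]
    unfold classInner
    rw [mul_inv_cancel_left₀ (Nat.cast_ne_zero.mpr Nat.card_pos.ne')]
  choose n hn using h1
  refine ⟨∑ j ∈ Finset.range 3, ∑ k ∈ Finset.range 3, om ^ j * conj (om ^ k) * (n j k : ℂ), ?_, ?_⟩
  · refine EZ.sum_mem fun j _ => EZ.sum_mem fun k _ => ?_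
    exact EZ.mul_mem (EZ.mul_mem (om_pow_mem j) (conj_mem (om_pow_mem k))) (intCast_mem EZ _)
  · have h2 : ∀ s : N, θ (z * (s : C)) * conj (φ (z * (s : C))) =
        ∑ j ∈ Finset.range 3, ∑ k ∈ Finset.range 3, om ^ j * conj (om ^ k) *
          (cp z (om ^ j) θ (s : C) * conj (cp z (om ^ k) φ (s : C))) := by
      intro s
      rw [cp_sum' z θ h3, cp_sum' z φ h3, map_sum, Finset.sum_mul_sum]
      refine Finset.sum_congr rfl fun j _ => Finset.sum_congr rfl fun k _ => ?_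
      rw [map_mul]; ring
    rw [Finset.sum_congr rfl fun s _ => h2 s, Finset.sum_comm, Finset.mul_sum]
    refine Finset.sum_congr rfl fun j _ => ?_
    rw [Finset.sum_comm, Finset.mul_sum]
    refine Finset.sum_congr rfl fun k _ => ?_
    rw [← Finset.mul_sum, hn]; ring

/-- the same with a factor 3 when `φ` vanishes on the cosets of `u` -/
theorem sum_EZ3 {z u : C} (hz : ∀ g, z * g = g * z) (h3 : z ^ 3 = 1) (hu : ∀ g, u * g = g * u) (hu3 : u ^ 3 = 1)
    (N : Subgroup C) [Fintype N] {θ φ : C → ℂ}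
    (hθ : IsGeneralizedCharacter C θ) (hφ : IsGeneralizedCharacter C φ)
    (hv : ∀ s ∈ N, φ (u * (z * s)) = 0 ∧ φ (u * (u * (z * s))) = 0) :
    ∃ w ∈ EZ, ∑ s : N, θ (z * (s : C)) * conj (φ (z * (s : C))) = 3 * (Nat.card N : ℂ) * w := by
  obtain ⟨w, hw, hs⟩ := sum_EZ hz h3 N hθ (cp_gen hu hu3 (ε := 1) (by norm_num) hφ)
  refine ⟨w, hw, ?_⟩
  rw [mul_assoc, ← hs, Finset.mul_sum]
  refine Finset.sum_congr rfl fun s _ => ?_
  obtain ⟨e1, e2⟩ := hv s s.2
  have e3 : cp u 1 φ (z * (s : C)) = φ (z * (s : C)) / 3 := by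
    unfold cp
    rw [e1, e2]; ring
  rw [e3, map_div₀]
  have : conj (3 : ℂ) = 3 := Complex.conj_ofNat 3
  rw [this]; ring

theorem sum_EZ9 {z u : C} (hz : ∀ g, z * g = g * z) (h3 : z ^ 3 = 1) (hu : ∀ g, u * g = g * u) (hu3 : u ^ 3 = 1)
    (N : Subgroup C) [Fintype N] {θ φ : C → ℂ}
    (hθ : IsGeneralizedCharacter C θ) (hφ : IsGeneralizedCharacter C φ)
    (hvθ : ∀ s ∈ N, θ (u * (z * s)) = 0 ∧ θ (u * (u * (z * s))) = 0)
    (hv : ∀ s ∈ N, φ (u * (z * s)) = 0 ∧ φ (u * (u * (z * s))) = 0) :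
    ∃ w ∈ EZ, ∑ s : N, θ (z * (s : C)) * conj (φ (z * (s : C))) = 9 * (Nat.card N : ℂ) * w := by
  obtain ⟨w, hw, hs⟩ := sum_EZ3 hz h3 hu hu3 N (cp_gen hu hu3 (ε := 1) (by norm_num) hθ) hφ hv
  refine ⟨w, hw, ?_⟩
  rw [show (9 : ℂ) * (Nat.card N : ℂ) * w = 3 * (3 * (Nat.card N : ℂ) * w) by ring, ← hs, Finset.mul_sum]
  refine Finset.sum_congr rfl fun s _ => ?_
  obtain ⟨e1, e2⟩ := hvθ s s.2
  have e3 : cp u 1 θ (z * (s : C)) = θ (z * (s : C)) / 3 := by
    unfold cp
    rw [e1, e2]; ring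
  rw [e3]; ring

end Cfsg.Agent.Lib.H16XG
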