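import Cfsg.Agent.Lib.H16XG
import Cfsg.Agent.Lib.BlockCentral

/-!
# Integrality of the contributions of the central section (helper16)
-/

set_option autoImplicit false
set_option linter.all false

namespace Cfsg.Agent.Lib.H16XG

open Cfsg Cfsg.Agent.Lib Cfsg.Agent.Lib.BlockRing Cfsg.Agent.Lib.BlockGA
open Cfsg.Agent.Lib.CharBasic Cfsg.Agent.Lib.H16XE Cfsg.Agent.Lib.PPart
open Cfsg.Agent.Lib.Subsec (Cz mem_Cz fs mem_fs sum_fs)
open Cfsg.Agent.Lib.H16XA (XD XS)
open scoped ComplexConjugate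

universe u

variable {p : ℕ} {G : Type u} [Group G] [Finite G]

theorem hat_gen (hp : p.Prime) {e f : ℕ} (he : IsRegExp p G e f) {χ : G → ℂ}
    (hχ : IsGeneralizedCharacter G χ) : IsGeneralizedCharacter G (fun g => χ (g ^ e)) := by
  classical
  haveI := Fintype.ofFinite G
  apply BrauerInd.isGeneralizedCharacter_of_restrict_elementary
  · intro g h
    simp only
    rw [conj_pow, hχ.isClassFunction]
  intro E q hq hEq
  have hnil := MGroups.isNilpotent_of_isElementary hq hEq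
  obtain ⟨πe, πf, hπe, hπf⟩ := BlockCentral.exists_homs hp he E hnil
  have h1 : (fun x : E => χ ((x : G) ^ e)) = fun x => χ ((E.subtype.comp πe) x) := by
    funext x
    show χ ((x : G) ^ e) = χ ((πe x : E) : G)
    rw [hπe]
    rfl
  show IsGeneralizedCharacter E (fun x : E => χ ((x : G) ^ e))
  rw [h1]
  exact hχ.comp (E.subtype.comp πe)

/-- stable generalized characters of a Sylow subgroup give generalized characters of the group -/
theorem star_gen [hp : Fact p.Prime] {e f : ℕ} (he : IsRegExp p G e f) (P : Sylow p G) {η : G → ℂ}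
    (hη : IsClassFunction G η) (hP : IsGeneralizedCharacter (P : Subgroup G) (fun x : (P : Subgroup G) => η x)) :
    IsGeneralizedCharacter G (fun g => η (g ^ f)) := by
  classical
  haveI := Fintype.ofFinite G
  apply BrauerInd.isGeneralizedCharacter_of_restrict_elementary
  · intro g h
    simp only
    rw [conj_pow, hη]
  intro E q hq hEq
  have hnil := MGroups.isNilpotent_of_isElementary hq hEq
  obtain ⟨πe, πf, hπe, hπf⟩ := BlockCentral.exists_homs hp.out he E hnil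
  set F : E →* G := E.subtype.comp πf with hF
  have hFx : ∀ x : E, F x = (x : G) ^ f := fun x => by
    rw [hF, MonoidHom.comp_apply, hπf]; rfl
  have hFp : IsPGroup p F.range := by
    rintro ⟨_, x, rfl⟩
    obtain ⟨k, hk⟩ := he.sing (x : G)
    refine ⟨k, Subtype.ext ?_⟩
    change (F x) ^ p ^ k = 1
    rw [hFx, ← hk, pow_orderOf_eq_one]
  obtain ⟨Q, hQ⟩ := hFp.exists_le_sylow
  obtain ⟨c, hc⟩ := MulAction.exists_smul_eq G Q P
  have hcP : ∀ x : E, c * F x * c⁻¹ ∈ (P : Subgroup G) := by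
    intro x
    rw [← hc, Sylow.coe_subgroup_smul]
    exact ⟨F x, hQ ⟨x, rfl⟩, rfl⟩
  let φ : E →* (P : Subgroup G) := MonoidHom.mk' (fun x => ⟨c * F x * c⁻¹, hcP x⟩) (by
    intro a b
    apply Subtype.ext
    show c * F (a * b) * c⁻¹ = (c * F a * c⁻¹) * (c * F b * c⁻¹)
    rw [map_mul]; group)
  have h1 : (fun x : E => η ((x : G) ^ f)) = fun x => η ((φ x : (P : Subgroup G)) : G) := by
    funext x
    show η ((x : G) ^ f) = η (c * F x * c⁻¹)
    rw [hη, hFx]
  show IsGeneralizedCharacter E (fun x : E => η ((x : G) ^ f))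
  rw [h1]
  exact hP.comp φ

theorem J_central {u : G} (hu : ∀ g, u * g = g * u) [Fintype G] (F : G → ℂ) :
    J p u F = ∑ s : G, if p ∣ orderOf s then 0 else F (u * s) := by
  have := Fintype.ofFinite (Cz u)
  rw [J_eq]
  have hm : ∀ g : G, g ∈ Cz u := fun g => mem_Cz.2 (hu g)
  refine Fintype.sum_equiv (⟨fun s => (s : G), fun g => ⟨g, hm g⟩, fun _ => rfl, fun _ => rfl⟩ : Cz u ≃ G) _ _ ?_
  intro s
  simp only [Equiv.coe_fn_mk]
  rw [Subgroup.orderOf_coe]

theorem card_Cz_central {u : G} (hu : ∀ g, u * g = g * u) : Nat.card (Cz u) = Nat.card G := by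
  have htop : Cz u = ⊤ := by
    ext g
    rw [mem_Cz]
    simp only [Subgroup.mem_top, iff_true]
    exact hu g
  rw [htop]; exact Subgroup.card_top

theorem avg_EZ (hp : p.Prime) {e f : ℕ} (he : IsRegExp p G e f) [Fintype G] {z : G} (hz : ∀ g, z * g = g * z)
    (h3 : z ^ 3 = 1) {θ φ : G → ℂ} (hθ : IsGeneralizedCharacter G θ) (hφ : IsGeneralizedCharacter G φ) :
    (Nat.card G : ℂ)⁻¹ * ∑ x : G, θ (z * x ^ e) * conj (φ (z * x ^ e)) ∈ EZ := by
  have h1 : ∀ j k : ℕ, ∃ n : ℤ, (Nat.card G : ℂ)⁻¹ * ∑ x : G, cp z (om ^ j) θ (x ^ e) * conj (cp z (om ^ k) φ (x ^ e)) =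
      n := by
    intro j k
    have e1 := hat_gen hp he (cp_gen hz h3 (om_pow_cube j) hθ)
    have e2 := hat_gen hp he (cp_gen hz h3 (om_pow_cube k) hφ)
    obtain ⟨n, hn⟩ := e1.classInner_int e2
    exact ⟨n, hn⟩
  choose n hn using h1
  have h2 : ∀ x : G, θ (z * x ^ e) * conj (φ (z * x ^ e)) =
      ∑ j ∈ Finset.range 3, ∑ k ∈ Finset.range 3, om ^ j * conj (om ^ k) *
        (cp z (om ^ j) θ (x ^ e) * conj (cp z (om ^ k) φ (x ^ e))) := by
    intro x
    rw [cp_sum' z θ h3, cp_sum' z φ h3, map_sum, Finset.sum_mul_sum]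
    refine Finset.sum_congr rfl fun j _ => Finset.sum_congr rfl fun k _ => ?_
    rw [map_mul]; ring
  rw [Finset.sum_congr rfl fun x _ => h2 x, Finset.sum_comm, Finset.mul_sum]
  refine EZ.sum_mem fun j _ => ?_
  rw [Finset.sum_comm, Finset.mul_sum]
  refine EZ.sum_mem fun k _ => ?_
  rw [← Finset.mul_sum, mul_left_comm, hn]
  exact EZ.mul_mem (EZ.mul_mem (om_pow_mem j) (conj_mem (om_pow_mem k))) (intCast_mem EZ _)

section

variable {P : Sylow 3 G} {z : G} {X : Finset G} (h : XS P z X) (hzc : ∀ g, z * g = g * z)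
include h hzc

/-- vanishing on the noncentral sections -/
def Van (P : Sylow 3 G) (z : G) (ψ : G → ℂ) : Prop :=
  ∀ u ∈ (P : Subgroup G), u ∉ Subgroup.zpowers z → ∀ s : G, Commute u s → ¬ 3 ∣ orderOf s → ψ (u * s) = 0

theorem sum_cent [Fintype G] {θ φ : G → ℂ} (hθ : IsGeneralizedCharacter G θ) (hφ : IsGeneralizedCharacter G φ)
    (hv : Van P z φ) {x : G} (hx : x ∈ X) :
    (∃ w ∈ EZ, J 3 x (fun s => θ (z * (x⁻¹ * s)) * conj (φ (z * (x⁻¹ * s)))) = 3 * ((Nat.card (Cz x) : ℂ) / 9) * w) ∧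
    (Van P z θ → ∃ w ∈ EZ, J 3 x (fun s => θ (z * (x⁻¹ * s)) * conj (φ (z * (x⁻¹ * s)))) =
      9 * ((Nat.card (Cz x) : ℂ) / 9) * w) := by
  classical
  haveI : Fact (Nat.Prime 3) := ⟨Nat.prime_three⟩
  have hd := h.toXD
  obtain ⟨hxP, hxz⟩ := h.sub x hx
  have := Fintype.ofFinite (Cz x)
  obtain ⟨N, hN, hN3, hNi⟩ := hd.nil hxP hxz
  have := Fintype.ofFinite N
  have hzx : z ∈ Cz x := mem_Cz.2 (hzc x).symm
  set zC : Cz x := ⟨z, hzx⟩ with hzC
  set xC : Cz x := ⟨x, mem_Cz.2 (Commute.refl x)⟩ with hxC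
  have hz1 : ∀ g : Cz x, zC * g = g * zC := fun g => Subtype.ext (hzc g)
  have hx1 : ∀ g : Cz x, xC * g = g * xC := fun g => Subtype.ext (mem_Cz.1 g.2)
  have hz3 : zC ^ 3 = 1 := Subtype.ext hd.z3
  have hx3 : xC ^ 3 = 1 := Subtype.ext (hd.exp x hxP)
  have hcard : (Nat.card (Cz x) : ℂ) / 9 = (Nat.card N : ℂ) := by
    have h1 := N.card_mul_index
    rw [hNi] at h1
    have h2 : (Nat.card (Cz x) : ℂ) = (Nat.card N : ℂ) * 9 := by
      rw [← h1]; push_cast; norm_num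
    rw [h2]; ring
  have hJ : J 3 x (fun s => θ (z * (x⁻¹ * s)) * conj (φ (z * (x⁻¹ * s)))) =
      ∑ s : N, (fun c : Cz x => θ c) (zC * (s : Cz x)) * conj ((fun c : Cz x => φ c) (zC * (s : Cz x))) := by
    rw [J_eq]
    have h1 : ∀ s : Cz x, (if 3 ∣ orderOf s then (0 : ℂ) else
        θ (z * (x⁻¹ * (x * (s : G)))) * conj (φ (z * (x⁻¹ * (x * (s : G)))))) =
        if s ∈ N then θ (z * (s : G)) * conj (φ (z * (s : G))) else 0 := by
      intro s
      by_cases hs : s ∈ N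
      · rw [if_pos hs, if_neg ((mem_of_reg hN3 hNi s).1 hs), inv_mul_cancel_left]
      · rw [if_neg hs, if_pos]
        by_contra h2
        exact hs ((mem_of_reg hN3 hNi s).2 h2)
    rw [Finset.sum_congr rfl fun s _ => h1 s, ← Finset.sum_filter]
    exact Finset.sum_subtype _ (fun s => by simp) _
  have hx2 : x * z ∉ Subgroup.zpowers z := by
    intro h1
    apply hxz
    have := Subgroup.mul_mem _ h1 (Subgroup.inv_mem _ (Subgroup.mem_zpowers z))
    simpa using this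
  have hxx : x * x ∉ Subgroup.zpowers z := by
    intro h1
    apply hxz
    have h2 := Subgroup.mul_mem _ h1 h1
    have h3 := hd.exp x hxP
    have h4 : x * x * (x * x) = x := by
      calc x * x * (x * x) = x ^ 3 * x := by simp only [pow_succ, pow_zero, one_mul, mul_assoc]
        _ = x := by rw [h3, one_mul]
    rwa [h4] at h2
  have hx4 : x * x * z ∉ Subgroup.zpowers z := by
    intro h1
    apply hxx
    have := Subgroup.mul_mem _ h1 (Subgroup.inv_mem _ (Subgroup.mem_zpowers z))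
    simpa using this
  have hvan : ∀ φ : G → ℂ, Van P z φ → ∀ s ∈ N, (fun c : Cz x => φ c) (xC * (zC * s)) = 0 ∧
      (fun c : Cz x => φ c) (xC * (xC * (zC * s))) = 0 := by
    intro φ hv s hs
    have hsr : ¬ 3 ∣ orderOf (s : G) := by
      rw [Subgroup.orderOf_coe]; exact (mem_of_reg hN3 hNi s).1 hs
    have hxs : Commute x (s : G) := mem_Cz.1 s.2
    have hzs : Commute z (s : G) := hzc s
    constructor
    · show φ (x * (z * (s : G))) = 0
      rw [← mul_assoc]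
      exact hv _ ((P : Subgroup G).mul_mem hxP hd.zP) hx2 _ (hxs.mul_left hzs) hsr
    · show φ (x * (x * (z * (s : G)))) = 0
      rw [← mul_assoc, ← mul_assoc]
      exact hv _ ((P : Subgroup G).mul_mem ((P : Subgroup G).mul_mem hxP hxP) hd.zP) hx4 _
        ((hxs.mul_left hxs).mul_left hzs) hsr
  rw [hJ, hcard]
  constructor
  · exact sum_EZ3 hz1 hz3 hx1 hx3 N (hθ.restrict _) (hφ.restrict _) (hvan φ hv)
  · intro hvθ
    exact sum_EZ9 hz1 hz3 hx1 hx3 N (hθ.restrict _) (hφ.restrict _) (hvan θ hvθ) (hvan φ hv)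

/-- integrality of the central contributions -/
theorem int_main [Fintype G] {θ φ : G → ℂ} (hθ : IsGeneralizedCharacter G θ) (hφ : IsGeneralizedCharacter G φ)
    (hv : Van P z φ) :
    (9 * ((Nat.card G : ℂ)⁻¹ * ∑ s : G, if 3 ∣ orderOf s then 0 else θ (z * s) * conj (φ (z * s))) ∈ EZ) ∧
    (Van P z θ → 3 * ((Nat.card G : ℂ)⁻¹ * ∑ s : G, if 3 ∣ orderOf s then 0 else θ (z * s) * conj (φ (z * s))) ∈ EZ) := by
  classical
  haveI : Fact (Nat.Prime 3) := ⟨Nat.prime_three⟩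
  have hd := h.toXD
  obtain ⟨e, f, he⟩ := exists_isRegExp 3 Nat.prime_three G
  set V := (Nat.card G : ℂ)⁻¹ * ∑ s : G, if 3 ∣ orderOf s then 0 else θ (z * s) * conj (φ (z * s)) with hV
  set F : G → ℂ := fun x => θ (z * x ^ e) * conj (φ (z * x ^ e)) with hF
  have hFc : IsClassFunction G F := by
    intro g c
    have e1 : z * (c * g * c⁻¹) ^ e = c * (z * g ^ e) * c⁻¹ := by
      rw [conj_pow, ← mul_assoc, ← mul_assoc, hzc c]; group
    simp only [hF]
    rw [e1, hθ.isClassFunction, hφ.isClassFunction]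
  have hA := avg_EZ (p := 3) Nat.prime_three he hzc hd.z3 hθ hφ
  have hsum := avg_rep (p := 3) hFc (RR_pe h) (RR_rep h)
  have hA' : (Nat.card G : ℂ)⁻¹ * ∑ g : G, F g ∈ EZ := hA
  rw [hsum, sum_RR h] at hA'
  have hcen : ∀ x : G, (∀ g, x * g = g * x) → (∃ k : ℕ, orderOf x = 3 ^ k) →
      (Nat.card (Cz x) : ℂ)⁻¹ * J 3 x F = V := by
    intro x hx hxo
    rw [card_Cz_central hx, J_central hx, hV]
    congr 1
    refine Finset.sum_congr rfl fun s _ => ?_
    split_ifs with hs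
    · rfl
    · simp only [hF]
      have e1 := he.eq_of_mul (g := x * s) (s := s) (u := x) (hx s) (hx s).symm hs hxo
      rw [e1.1]
  have hzi : ∀ g, z⁻¹ * g = g * z⁻¹ := fun g => by
    rw [inv_mul_eq_iff_eq_mul, ← mul_assoc, hzc, mul_assoc, mul_inv_cancel, mul_one]
  rw [hcen 1 (fun g => by simp) ⟨0, by simp⟩, hcen z hzc (pe_of_P hd.zP),
    hcen z⁻¹ hzi (pe_of_P ((P : Subgroup G).inv_mem hd.zP))] at hA'
  have hJx : ∀ x ∈ X, J 3 x F = J 3 x (fun s => θ (z * (x⁻¹ * s)) * conj (φ (z * (x⁻¹ * s)))) := by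
    intro x hx
    have := Fintype.ofFinite (Cz x)
    rw [J_eq, J_eq]
    refine Finset.sum_congr rfl fun s _ => ?_
    split_ifs with hs
    · rfl
    · simp only [hF]
      have hxs := mem_Cz.1 s.2
      have e1 := he.eq_of_mul (g := x * (s : G)) (s := (s : G)) (u := x) hxs hxs.symm
        (by rwa [Subgroup.orderOf_coe]) (pe_of_P (h.sub x hx).1)
      rw [e1.1, inv_mul_cancel_left]
  constructor
  · have h1 : 3 * ∑ x ∈ X, (Nat.card (Cz x) : ℂ)⁻¹ * J 3 x F ∈ EZ := by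
      rw [Finset.mul_sum]
      refine EZ.sum_mem fun x hx => ?_
      obtain ⟨w, hw, hJ⟩ := (sum_cent h hzc hθ hφ hv hx).1
      rw [hJx x hx, hJ]
      have hc : (Nat.card (Cz x) : ℂ) ≠ 0 := Nat.cast_ne_zero.mpr Nat.card_pos.ne'
      have : 3 * ((Nat.card (Cz x) : ℂ)⁻¹ * (3 * ((Nat.card (Cz x) : ℂ) / 9) * w)) = w := by
        field_simp; ring
      rw [this]; exact hw
    have h2 : 3 * (V + (V + (V + ∑ x ∈ X, (Nat.card (Cz x) : ℂ)⁻¹ * J 3 x F))) ∈ EZ := by
      have := EZ.mul_mem (natCast_mem EZ 3) hA'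
      exact_mod_cast this
    have h3 := EZ.sub_mem h2 h1
    have h4 : 3 * (V + (V + (V + ∑ x ∈ X, (Nat.card (Cz x) : ℂ)⁻¹ * J 3 x F))) -
        3 * ∑ x ∈ X, (Nat.card (Cz x) : ℂ)⁻¹ * J 3 x F = 9 * V := by ring
    rwa [h4] at h3
  · intro hvθ
    have h1 : ∑ x ∈ X, (Nat.card (Cz x) : ℂ)⁻¹ * J 3 x F ∈ EZ := by
      refine EZ.sum_mem fun x hx => ?_
      obtain ⟨w, hw, hJ⟩ := (sum_cent h hzc hθ hφ hv hx).2 hvθ
      rw [hJx x hx, hJ]
      have hc : (Nat.card (Cz x) : ℂ) ≠ 0 := Nat.cast_ne_zero.mpr Nat.card_pos.ne'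
      have : (Nat.card (Cz x) : ℂ)⁻¹ * (9 * ((Nat.card (Cz x) : ℂ) / 9) * w) = w := by
        field_simp
      rw [this]; exact hw
    have h3 := EZ.sub_mem hA' h1
    have h4 : V + (V + (V + ∑ x ∈ X, (Nat.card (Cz x) : ℂ)⁻¹ * J 3 x F)) -
        ∑ x ∈ X, (Nat.card (Cz x) : ℂ)⁻¹ * J 3 x F = 3 * V := by ring
    rwa [h4] at h3

end

end Cfsg.Agent.Lib.H16XG
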