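import Cfsg.Agent.Lib.H16XT

/-!
# The contribution table of a principal 3-block with extraspecial defect group of order 27: conclusion (helper16)
-/

set_option autoImplicit false
set_option linter.all false

namespace Cfsg.Agent.Lib.H16XT

open Cfsg.Agent.Lib.H16XG
open scoped ComplexConjugate

namespace Tab

variable {ι Y : Type*} [Fintype ι] [DecidableEq ι] [Fintype Y] [DecidableEq Y] (t : Tab ι Y)

theorem normSq_div3 (w : ℂ) : Complex.normSq (w / 3) = Complex.normSq w / 9 := by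
  rw [Complex.normSq_div]
  congr 1
  rw [Complex.normSq_apply]; norm_num

theorem normSq_div9 (w : ℂ) : Complex.normSq (w / 9) = Complex.normSq w / 81 := by
  rw [Complex.normSq_div]
  congr 1
  rw [Complex.normSq_apply]; norm_num

theorem sq_ne_neg_one {w : ℂ} (h : w ∈ EZ) : w ^ 2 ≠ -1 := by
  obtain ⟨a, b, rfl⟩ := h
  intro h1
  have h3 : (0 : ℝ) < Real.sqrt 3 := Real.sqrt_pos.2 (by norm_num)
  have h2 : ((a : ℂ) + b * om) ^ 2 = ((a ^ 2 - b ^ 2 : ℤ) : ℂ) + ((2 * a * b - b ^ 2 : ℤ) : ℂ) * om := by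
    push_cast
    linear_combination ((b : ℂ) ^ 2) * om_sq
  rw [h2] at h1
  have him := congrArg Complex.im h1
  have hre := congrArg Complex.re h1
  simp only [Complex.add_im, Complex.add_re, Complex.mul_im, Complex.mul_re, Complex.intCast_re, Complex.intCast_im,
    om_im, om_re, Complex.neg_im, Complex.neg_re, Complex.one_im, Complex.one_re] at him hre
  have e1 : ((2 * a * b - b ^ 2 : ℤ) : ℝ) * Real.sqrt 3 = 0 := by linarith
  have e2 : ((2 * a * b - b ^ 2 : ℤ) : ℝ) = 0 := by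
    rcases mul_eq_zero.1 e1 with h | h
    · exact h
    · linarith
  have e3 : (2 * a * b - b ^ 2 : ℤ) = 0 := by exact_mod_cast e2
  rw [e2] at hre
  have e4 : ((a ^ 2 - b ^ 2 : ℤ) : ℝ) = -1 := by linarith
  have e5 : (a ^ 2 - b ^ 2 : ℤ) = -1 := by exact_mod_cast e4
  have e6 : b * (2 * a - b) = 0 := by linarith
  rcases mul_eq_zero.1 e6 with h | h
  · rw [h] at e5; nlinarith [sq_nonneg a]
  · have : b = 2 * a := by linarith
    rw [this] at e5
    have e7 : 3 * a ^ 2 = 1 := by linarith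
    omega

/-- with nine characters of height zero the characters of positive height are orthogonal -/
theorem nine_orth (y : Y) (h9 : t.Z.card = 9) {ψ ψ' : ι} (hψ : ψ ∈ t.Q) (hψ' : ψ' ∈ t.Q) (hne : ψ' ≠ ψ) :
    t.α ψ' ψ = 0 := by
  classical
  by_contra hcon
  have hrow := t.row ψ 9 (by rw [t.α_Q hψ]; norm_num)
  have hZ9 : ∀ χ ∈ t.Z, 9 ≤ Complex.normSq (t.α χ ψ) := by
    intro χ hχ
    have e1 := one_le_normSq (t.α3 χ ψ (t.mem_Q.1 hψ)) (by
      intro h5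
      exact t.α1 χ ψ (t.mem_Z.1 hχ) (by field_simp at h5; simpa using h5))
    rw [normSq_div3] at e1
    linarith [(le_div_iff₀ (by norm_num : (0 : ℝ) < 9)).1 e1]
  have hψψ : Complex.normSq (t.α ψ ψ) = 81 := by
    rw [t.α_Q hψ, Complex.normSq_apply]; norm_num
  have hψ81 : 81 ≤ Complex.normSq (t.α ψ' ψ) := by
    have e1 := one_le_normSq (t.α9 ψ' ψ (t.mem_Q.1 hψ') (t.mem_Q.1 hψ)) (by
      intro h5; apply hcon; field_simp at h5; simpa using h5)
    rw [normSq_div9] at e1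
    linarith [(le_div_iff₀ (by norm_num : (0 : ℝ) < 81)).1 e1]
  have hQsplit : ∀ f : ι → ℝ, ∑ χ ∈ t.Q, f χ = f ψ + (f ψ' + ∑ χ ∈ (t.Q.erase ψ).erase ψ', f χ) := by
    intro f
    rw [← Finset.add_sum_erase _ _ hψ, ← Finset.add_sum_erase _ _ (Finset.mem_erase.2 ⟨hne, hψ'⟩)]
  have hQsplitC : ∀ f : ι → ℂ, ∑ χ ∈ t.Q, f χ = f ψ + (f ψ' + ∑ χ ∈ (t.Q.erase ψ).erase ψ', f χ) := by
    intro f
    rw [← Finset.add_sum_erase _ _ hψ, ← Finset.add_sum_erase _ _ (Finset.mem_erase.2 ⟨hne, hψ'⟩)]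
  rw [t.sum_split, hQsplit, hψψ] at hrow
  have hsumZ : (81 : ℝ) ≤ ∑ χ ∈ t.Z, Complex.normSq (t.α χ ψ) := by
    have := Finset.sum_le_sum hZ9
    rw [Finset.sum_const, h9, nsmul_eq_mul] at this
    norm_num at this
    exact this
  have hrest : 0 ≤ ∑ χ ∈ (t.Q.erase ψ).erase ψ', Complex.normSq (t.α χ ψ) :=
    Finset.sum_nonneg fun _ _ => Complex.normSq_nonneg _
  have hZeq : ∑ χ ∈ t.Z, Complex.normSq (t.α χ ψ) = 81 := by linarith
  have hψeq : Complex.normSq (t.α ψ' ψ) = 81 := by linarith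
  have hresteq : ∑ χ ∈ (t.Q.erase ψ).erase ψ', Complex.normSq (t.α χ ψ) = 0 := by linarith
  have hzero : ∀ χ ∈ (t.Q.erase ψ).erase ψ', t.α χ ψ = 0 := by
    intro χ hχ
    have := (Finset.sum_eq_zero_iff_of_nonneg (fun _ _ => Complex.normSq_nonneg _)).1 hresteq χ hχ
    exact Complex.normSq_eq_zero.1 this
  have hZ1 : ∀ χ ∈ t.Z, Complex.normSq (t.α χ ψ) = 9 := by
    have h5 : ∑ χ ∈ t.Z, (Complex.normSq (t.α χ ψ) - 9) = 0 := by
      rw [Finset.sum_sub_distrib, hZeq, Finset.sum_const, h9, nsmul_eq_mul]; norm_num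
    intro χ hχ
    have := (Finset.sum_eq_zero_iff_of_nonneg (fun χ hχ => sub_nonneg.2 (hZ9 χ hχ))).1 h5 χ hχ
    linarith
  -- normalised entries
  set κ : ι → ℂ := fun χ => t.α χ ψ / 3 with hκ
  have hκα : ∀ χ, t.α χ ψ = 3 * κ χ := fun χ => by rw [hκ]; field_simp
  have hκ1 : ∀ χ ∈ t.Z, Complex.normSq (κ χ) = 1 := by
    intro χ hχ
    simp only [hκ]
    rw [normSq_div3, hZ1 χ hχ]; norm_num
  set ε : ℂ := t.α ψ' ψ / 9 with hε
  have hεα : t.α ψ' ψ = 9 * ε := by rw [hε]; field_simp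
  have hεE : ε ∈ EZ := t.α9 ψ' ψ (t.mem_Q.1 hψ') (t.mem_Q.1 hψ)
  -- the sum of squares
  have hsq : ∑ χ, t.α χ ψ ^ 2 = 0 := by
    have h5 := t.α0 ψ ψ
    have h6 := congrArg conj h5
    rw [map_sum, map_zero] at h6
    rw [← h6]
    refine Finset.sum_congr rfl fun χ _ => ?_
    rw [map_mul, t.αh, sq]
  set c : ℂ := -(1 + ε ^ 2) with hc
  have hκsum : ∑ χ ∈ t.Z, κ χ ^ 2 = 9 * c := by
    rw [t.sum_split, hQsplitC, t.α_Q hψ, Finset.sum_eq_zero (s := (t.Q.erase ψ).erase ψ')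
      (fun χ hχ => by rw [hzero χ hχ]; ring), hεα, Finset.sum_congr rfl (fun χ _ => by rw [hκα, mul_pow]),
      ← Finset.mul_sum] at hsq
    rw [hc]
    linear_combination (1 / 9 : ℂ) * hsq
  have hcE : c ∈ EZ := by
    rw [hc]
    exact EZ.neg_mem (EZ.add_mem EZ.one_mem (EZ.pow_mem hεE 2))
  have hc0 : c ≠ 0 := by
    intro h5
    apply sq_ne_neg_one hεE
    rw [hc] at h5
    linear_combination -h5
  have hc1 := one_le_normSq hcE hc0
  have hdiff : ∑ χ ∈ t.Z, Complex.normSq (κ χ ^ 2 - c) = 9 - 9 * Complex.normSq c := by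
    have e1 : ∀ χ ∈ t.Z, Complex.normSq (κ χ ^ 2 - c) = 1 + Complex.normSq c - 2 * (κ χ ^ 2 * conj c).re := by
      intro χ hχ
      rw [Complex.normSq_sub, map_pow, hκ1 χ hχ]; ring
    rw [Finset.sum_congr rfl e1, Finset.sum_sub_distrib, Finset.sum_const, h9, ← Finset.mul_sum]
    have e2 : ∑ χ ∈ t.Z, (κ χ ^ 2 * conj c).re = 9 * Complex.normSq c := by
      rw [← Complex.re_sum, ← Finset.sum_mul, hκsum, mul_assoc, Complex.mul_conj]
      rw [show (9 : ℂ) * ((Complex.normSq c : ℝ) : ℂ) = ((9 * Complex.normSq c : ℝ) : ℂ) by push_cast; ring,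
        Complex.ofReal_re]
    rw [e2, nsmul_eq_mul]; push_cast; ring
  have hdn : 0 ≤ ∑ χ ∈ t.Z, Complex.normSq (κ χ ^ 2 - c) := Finset.sum_nonneg fun _ _ => Complex.normSq_nonneg _
  have hd0 : ∑ χ ∈ t.Z, Complex.normSq (κ χ ^ 2 - c) = 0 := by linarith
  have hκc : ∀ χ ∈ t.Z, κ χ ^ 2 = c := by
    intro χ hχ
    have := (Finset.sum_eq_zero_iff_of_nonneg (fun _ _ => Complex.normSq_nonneg _)).1 hd0 χ hχ
    exact sub_eq_zero.1 (Complex.normSq_eq_zero.1 this)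
  have hκ0 : κ t.o ≠ 0 := by
    intro h5
    have := hκ1 t.o t.o_mem
    rw [h5, Complex.normSq_zero] at this
    norm_num at this
  have hσ : ∀ χ ∈ t.Z, ∃ σ : ℤ, Odd σ ∧ κ χ = σ * κ t.o := by
    intro χ hχ
    have h5 : κ χ ^ 2 = κ t.o ^ 2 := (hκc χ hχ).trans (hκc t.o t.o_mem).symm
    rcases sq_eq_sq_iff_eq_or_eq_neg.1 h5 with h6 | h6
    · exact ⟨1, by decide, by rw [h6]; simp⟩
    · exact ⟨-1, by decide, by rw [h6]; simp⟩
  choose! σ hσ1 hσ2 using hσ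
  have hαd : ∑ χ, t.α χ ψ * (t.d y χ : ℂ) = 0 := by
    have h5 := t.αd ψ y
    have h6 := congrArg conj h5
    rw [map_sum, map_zero] at h6
    rw [← h6]
    refine Finset.sum_congr rfl fun χ _ => ?_
    rw [map_mul, t.αh, map_intCast]
  rw [t.sum_split, Finset.sum_eq_zero (s := t.Q) (fun χ hχ => by rw [t.d_eq_zero y hχ]; simp), add_zero,
    Finset.sum_congr rfl (fun χ hχ => by
      rw [hκα, hσ2 χ hχ, show 3 * ((σ χ : ℂ) * κ t.o) * (t.d y χ : ℂ) = 3 * κ t.o * ((σ χ * t.d y χ : ℤ) : ℂ) by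
        push_cast; ring]), ← Finset.mul_sum, ← Int.cast_sum] at hαd
  have h7 : (∑ χ ∈ t.Z, σ χ * t.d y χ : ℤ) = 0 := by
    rcases mul_eq_zero.1 hαd with h8 | h8
    · exfalso
      rcases mul_eq_zero.1 h8 with h10 | h10
      · norm_num at h10
      · exact hκ0 h10
    · exact_mod_cast h8
  have h8 := t.odd_sum_of_nine (f := fun χ => σ χ * t.d y χ) h9
    (fun χ hχ => (hσ1 χ hχ).mul (t.odd_of_nine y h9 hχ))
  rw [h7] at h8
  exact absurd h8 (by decide)

theorem card_Q_le_nine (y : Y) (h9 : t.Z.card = 9) : (t.Q.card : ℝ) ≤ t.l :=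
  t.bessel t.Q (Finset.Subset.refl _) fun χ hχ ψ hψ hne => t.nine_orth y h9 hψ hχ hne

/-- the local case -/
theorem local_final (y : Y) (hs : ∀ χ ∈ t.Z, (t.a χ χ : ℂ) = t.α χ χ) (hlow : 2 * t.l ≤ t.Q.card) (hl : 0 < t.l) :
    t.l = 6 - Fintype.card Y ∧ t.Z.card = 6 := by
  have hs0 : ∀ χ ∈ t.Z, t.s χ = 0 := by
    intro χ hχ
    obtain ⟨h1, h2⟩ := t.α_diag χ
    have h3 := hs χ hχ
    rw [h1, h2] at h3
    have h4 : (9 - t.N χ + 6 * t.s χ : ℤ) = 9 - t.N χ - 3 * t.s χ := by exact_mod_cast h3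
    omega
  have htr := t.trace_id
  rw [Finset.sum_eq_zero hs0] at htr
  rcases t.card_Z_cases y with h | h
  · refine ⟨?_, h⟩
    have h1 := t.card_Q_le
    rw [h] at htr
    push_cast at htr
    linarith
  · exfalso
    have h1 := t.card_Q_le_nine y h
    linarith

theorem N_ge {χ : ι} (hχ : χ ∈ t.Z) : (Fintype.card Y : ℤ) ≤ t.N χ := by
  unfold N
  rw [← Finset.card_univ, Finset.cast_card]
  refine Finset.sum_le_sum fun y _ => ?_
  have := t.d_ne_zero y hχ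
  have h1 : 0 < t.d y χ * t.d y χ := mul_self_pos.2 this
  omega

theorem a_row_ge {χ : ι} (hχ : χ ∈ t.Z) :
    t.a χ χ * t.a χ χ + ((t.Z.card : ℤ) - 1) + 9 * t.Q.card ≤ 27 * t.a χ χ := by
  rw [← t.aid χ, t.sum_split, ← Finset.add_sum_erase _ _ hχ]
  have h1 : ((t.Z.card : ℤ) - 1) ≤ ∑ ψ ∈ t.Z.erase χ, t.a χ ψ * t.a χ ψ := by
    have : ((t.Z.card : ℤ) - 1) = ∑ ψ ∈ t.Z.erase χ, (1 : ℤ) := by
      rw [Finset.sum_const, Finset.card_erase_of_mem hχ, nsmul_eq_mul, mul_one]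
      have : 0 < t.Z.card := Finset.card_pos.2 ⟨χ, hχ⟩
      push_cast [Nat.cast_sub (show 1 ≤ t.Z.card from this)]
      ring
    rw [this]
    refine Finset.sum_le_sum fun ψ _ => ?_
    have h2 := t.a0 χ ψ (t.mem_Z.1 hχ)
    have h3 : 0 < t.a χ ψ * t.a χ ψ := mul_self_pos.2 h2
    omega
  have h2 : 9 * (t.Q.card : ℤ) ≤ ∑ ψ ∈ t.Q, t.a χ ψ * t.a χ ψ := by
    have : 9 * (t.Q.card : ℤ) = ∑ ψ ∈ t.Q, (9 : ℤ) := by
      rw [Finset.sum_const, nsmul_eq_mul]; ring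
    rw [this]
    refine Finset.sum_le_sum fun ψ hψ => ?_
    have h3 := t.a0 χ ψ (t.mem_Z.1 hχ)
    obtain ⟨b, hb⟩ := t.a3 χ ψ (t.mem_Q.1 hψ)
    rw [hb] at h3 ⊢
    have hb0 : b ≠ 0 := by rintro rfl; exact h3 (by ring)
    have h4 : 0 < b * b := mul_self_pos.2 hb0
    nlinarith
  linarith

/-- the global case -/
theorem global_final (y : Y) (hm : Fintype.card Y = 1 ∨ Fintype.card Y = 2 ∨ Fintype.card Y = 4)
    (hl : t.l = 6 - Fintype.card Y) (ho : t.α t.o t.o = 9 - Fintype.card Y) :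
    t.Z.card = 6 ∧ t.Q.card = 2 * (6 - Fintype.card Y) := by
  set m := Fintype.card Y with hmdef
  have hNo : t.N t.o = m := by
    unfold N
    rw [Finset.sum_congr rfl fun y _ => by rw [t.do1]]
    rw [Finset.sum_const, Finset.card_univ, nsmul_eq_mul]; norm_num
    rfl
  have hso : t.s t.o = 0 := by
    obtain ⟨h1, -⟩ := t.α_diag t.o
    rw [ho, hNo] at h1
    have h2 : (9 - (m : ℤ)) = 9 - m - 3 * t.s t.o := by exact_mod_cast h1
    omega
  have hsge : ∀ χ ∈ t.Z, -1 ≤ t.s χ := by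
    intro χ hχ
    obtain ⟨-, h1⟩ := t.α_diag χ
    have h2 := t.apos χ
    have h3 := t.N_ge hχ
    omega
  have hSge : -((t.Z.card : ℤ) - 1) ≤ ∑ χ ∈ t.Z, t.s χ := by
    rw [← Finset.add_sum_erase _ _ t.o_mem, hso, zero_add]
    have h1 : -((t.Z.card : ℤ) - 1) = ∑ ψ ∈ t.Z.erase t.o, (-1 : ℤ) := by
      rw [Finset.sum_const, Finset.card_erase_of_mem t.o_mem, nsmul_eq_mul]
      have : 0 < t.Z.card := Finset.card_pos.2 ⟨t.o, t.o_mem⟩
      push_cast [Nat.cast_sub (show 1 ≤ t.Z.card from this)]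
      ring
    rw [h1]
    exact Finset.sum_le_sum fun χ hχ => hsge χ (Finset.mem_of_mem_erase hχ)
  have htr := t.trace_id
  rw [hl] at htr
  have htr2 : 3 * (t.Q.card : ℤ) = 9 * (6 - m) - 3 * t.Z.card + 3 * m + ∑ χ ∈ t.Z, t.s χ := by
    have : (3 * (t.Q.card : ℤ) : ℝ) = ((9 * (6 - m) - 3 * t.Z.card + 3 * m + ∑ χ ∈ t.Z, t.s χ : ℤ) : ℝ) := by
      push_cast at htr ⊢
      linarith
    exact_mod_cast this
  have hZc := t.card_Z_cases y
  have hZ6 : m ≠ 1 → t.Z.card = 6 := by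
    intro h1
    have h2 : 1 < Fintype.card Y := by omega
    obtain ⟨y1, y2, hy⟩ := Fintype.one_lt_card_iff.1 h2
    exact t.card_Z_six_of_two hy
  have hspos : ∀ χ ∈ t.Z, 0 ≤ t.s χ := by
    intro χ hχ
    by_contra hcon
    have h1 := hsge χ hχ
    have h2 : t.s χ = -1 := by omega
    obtain ⟨-, h3⟩ := t.α_diag χ
    rw [h2] at h3
    have h4 := t.apos χ
    have h5 := t.N_ge hχ
    have h6 := t.a_row_ge hχ
    rcases hm with h7 | h7 | h7
    · -- `m = 1`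
      have h8 : t.N χ = t.d y χ * t.d y χ := by
        unfold N
        have : Subsingleton Y := Fintype.card_le_one_iff_subsingleton.1 (by omega)
        rw [Fintype.sum_subsingleton _ y]
      have h9 : t.N χ = 1 := by
        rcases t.d_abs y χ with h10 | h10 | h10 | h10 | h10 <;> rw [h10] at h8 <;> omega
      rw [h9] at h3
      norm_num at h3
      rw [h3] at h6
      rcases hZc with h10 | h10 <;> rw [h10] at h6 hSge htr2 <;> push_cast at h6 hSge htr2 <;> omega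
    · have h9 : t.N χ = 2 := by omega
      rw [h9] at h3
      norm_num at h3
      rw [h3] at h6
      have h10 := hZ6 (by omega)
      rw [h10] at h6 hSge htr2
      push_cast at h6 hSge htr2
      omega
    · omega
  have hS0 : 0 ≤ ∑ χ ∈ t.Z, t.s χ := Finset.sum_nonneg hspos
  have hZ : t.Z.card = 6 := by
    rcases hZc with h1 | h1
    · exact h1
    · exfalso
      have h2 := t.card_Q_le_nine y h1
      have hm1 : m = 1 := by
        by_contra h3
        have := hZ6 h3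
        omega
      rw [hl, hm1] at h2
      have h3 : (t.Q.card : ℝ) ≤ 5 := by
        have : (6 : ℝ) - ((1 : ℕ) : ℝ) = 5 := by norm_num
        linarith
      have h4 : t.Q.card ≤ 5 := by exact_mod_cast h3
      rw [h1, hm1] at htr2
      omega
  refine ⟨hZ, ?_⟩
  have h2 := t.card_Q_le
  rw [hl] at h2
  have h3 : (t.Q.card : ℤ) ≤ 2 * (6 - m) := by
    have : ((t.Q.card : ℤ) : ℝ) ≤ ((2 * (6 - (m : ℤ)) : ℤ) : ℝ) := by
      rw [Int.cast_mul, Int.cast_sub, Int.cast_natCast, Int.cast_natCast]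
      norm_num
      exact h2
    exact Int.cast_le.1 this
  rw [hZ] at htr2
  omega

end Tab

end Cfsg.Agent.Lib.H16XT
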