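import Cfsg.Agent.Lib.H16XH
import Cfsg.Agent.Lib.H16XU

/-!
# The contribution table of the principal 3-block: ingredients (helper16)
-/

set_option autoImplicit false
set_option linter.all false

namespace Cfsg.Agent.Lib.H16XI

open Cfsg Cfsg.Agent.Lib Cfsg.Agent.Lib.BlockRing Cfsg.Agent.Lib.BlockGA Cfsg.Agent.Lib.BlockIdem
open Cfsg.Agent.Lib.BlockPair Cfsg.Agent.Lib.Contrib Cfsg.Agent.Lib.BlockSection
open Cfsg.Agent.Lib.CharBasic Cfsg.Agent.Lib.H16XE Cfsg.Agent.Lib.H16XG Cfsg.Agent.Lib.PPart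
open Cfsg.Agent.Lib.Subsec (Cz mem_Cz fs mem_fs sum_fs al al_eq)
open Cfsg.Agent.Lib.H16XA (XD XS)
open Cfsg.Agent.Lib.BlockDefect Cfsg.Agent.Lib.BlockDeg
open scoped ComplexConjugate Classical

universe u

variable {M : Ideal AlgInt} {G : Type u} [Group G] [Finite G]

/-- values at real elements of order 3 -/
theorem rational {u : G} (hu3 : u ^ 3 = 1) (hc : IsConj u u⁻¹) (χ : IrrCharacter G) :
    ∃ d : ℤ, (χ : G → ℂ) u = d ∧ (3 : ℤ) ∣ (charDegree (χ : G → ℂ) : ℤ) - d := by
  have hdeg := charDegree_cast_irr χ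
  have hcf := χ.2.isClassFunction
  have hint : IsIntegral ℤ ((χ : G → ℂ) u) := by
    obtain ⟨n, ρ, hρ⟩ := χ.2.isCharacter
    rw [← hρ]
    exact CharValues.isIntegral_character ρ u
  have hinv : (χ : G → ℂ) (u ^ 2) = (χ : G → ℂ) u := by
    have e1 : u ^ 2 = u⁻¹ := by
      rw [eq_inv_iff_mul_eq_one, ← pow_succ]; exact hu3
    rw [e1]
    obtain ⟨c, hc⟩ := isConj_iff.1 hc
    rw [← hc, hcf]
  have hkey : ∃ c : ℕ, (χ : G → ℂ) 1 + 2 * (χ : G → ℂ) u = 3 * c := by
    obtain ⟨n, ρ, hρ⟩ := χ.2.isCharacter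
    obtain ⟨μ, h1, h2⟩ := CharValues.exists_eigenvalues ρ u
    have hμ : ∀ i, μ i ^ 3 = 1 := by
      intro i
      have h3 : orderOf u ∣ 3 := orderOf_dvd_of_pow_eq_one hu3
      obtain ⟨k, hk⟩ := h3
      rw [hk, pow_mul, h1, one_pow]
    refine ⟨(Finset.univ.filter (fun i => μ i = 1)).card, ?_⟩
    have e1 : (χ : G → ℂ) 1 = ∑ i, μ i ^ 0 := by
      have := h2 0
      rw [pow_zero] at this
      rw [← hρ, this]
    have e2 : (χ : G → ℂ) u = ∑ i, μ i := by
      have := h2 1
      simp only [pow_one] at this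
      rw [← hρ, this]
    have e3 : (χ : G → ℂ) (u ^ 2) = ∑ i, μ i ^ 2 := by rw [← hρ, h2 2]
    have e4 : (χ : G → ℂ) 1 + (χ : G → ℂ) u + (χ : G → ℂ) (u ^ 2) = ∑ i, (1 + μ i + μ i ^ 2) := by
      rw [e1, e2, e3, Finset.sum_add_distrib, Finset.sum_add_distrib]
      simp only [pow_zero]
    rw [hinv] at e4
    have e5 : ∑ i, (1 + μ i + μ i ^ 2) = 3 * ((Finset.univ.filter (fun i => μ i = 1)).card : ℂ) := by
      rw [Finset.sum_congr rfl fun i _ => sum_root (hμ i), ← Finset.sum_filter, Finset.sum_const, nsmul_eq_mul]; ring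
    linear_combination e4 + e5
  obtain ⟨c, hc⟩ := hkey
  rw [← hdeg] at hc
  obtain ⟨d, hd⟩ := CharCentral.exists_int_of_isIntegral_rat hint
    ((3 * (c : ℚ) - (charDegree (χ : G → ℂ) : ℚ)) / 2) (by push_cast; linear_combination (1 / 2 : ℂ) * hc)
  refine ⟨d, hd, ⟨(c : ℤ) - d, ?_⟩⟩
  rw [hd] at hc
  have h4 : ((charDegree (χ : G → ℂ) : ℤ) + 2 * d : ℤ) = 3 * c := by exact_mod_cast hc
  linarith

/-- the principal character -/
noncomputable def tr1 (G : Type u) [Group G] [Finite G] : IrrCharacter G := ⟨fun _ => 1, isIrrCharacter_fun_one⟩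

theorem tr1_mem [M.IsPrime] : tr1 G ∈ principalBlock M G := mem_blockOf_self (tr1 G)

theorem deg_tr1 : charDegree (tr1 G : G → ℂ) = 1 := by
  have := charDegree_cast_irr (tr1 G)
  have h1 : (tr1 G : G → ℂ) 1 = 1 := rfl
  rw [h1] at this
  exact_mod_cast this

theorem height_principal [M.IsPrime] {p : ℕ} (χ : G → ℂ) :
    blockHeight p (principalBlock M G) χ = (charDegree χ).factorization p := by
  unfold blockHeight
  have h1 : sInf ((fun ψ : IrrCharacter G => (charDegree (ψ : G → ℂ)).factorization p) '' principalBlock M G) = 0 := by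
    apply Nat.sInf_eq_zero.2
    left
    exact ⟨tr1 G, tr1_mem, by simp [deg_tr1]⟩
  rw [h1, Nat.sub_zero]

theorem height_zero_iff [M.IsPrime] (χ : IrrCharacter G) :
    blockHeight 3 (principalBlock M G) (χ : G → ℂ) = 0 ↔ ¬ (3 : ℤ) ∣ (charDegree (χ : G → ℂ) : ℤ) := by
  rw [height_principal, Nat.factorization_eq_zero_iff]
  have h1 := (charDegree_pos χ.2).ne'
  constructor
  · rintro (h | h | h)
    · exact absurd Nat.prime_three h
    · intro h2; exact h (by exact_mod_cast h2)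
    · exact absurd h h1
  · intro h; right; left
    intro h2; exact h (by exact_mod_cast h2)

section

variable {P : Sylow 3 G} {z : G} (h : XD P z) (hM : IsPModular 3 M)
include h hM

/-- squares of the values at a noncentral element -/
theorem sum_sq {u : G} (hu : u ∈ (P : Subgroup G)) (hu' : u ∉ Subgroup.zpowers z) :
    ∑ χ ∈ fs (principalBlock M G), (χ : G → ℂ) u * conj ((χ : G → ℂ) u) = 9 := by
  haveI : Fact (Nat.Prime 3) := ⟨Nat.prime_three⟩
  obtain ⟨k, hk⟩ := pe_of_P hu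
  obtain ⟨N, hN, hN3, hNi⟩ := h.nil hu hu'
  have h1r : ¬ 3 ∣ orderOf (1 : Cz u) := by rw [orderOf_one]; norm_num
  have h1 := principal_section_sum hM hk (H := Cz u) (fun g => mem_Cz) h1r h1r
  have h2 := sum_principal_of_normal_complement (G := Cz u) hM hN3 hNi h1r h1r
  rw [h2, finsum_mem_eq_finite_toFinset_sum _ (Set.toFinite _)] at h1
  have h3 : u * ((1 : Cz u) : G) = u := by simp
  rw [h3] at h1
  rw [show (9 : ℂ) = ((3 : ℕ) : ℂ) ^ 2 by norm_num, ← h1]

/-- characters of degree divisible by 3 vanish at noncentral elements -/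
theorem val_zero {u : G} (hu : u ∈ (P : Subgroup G)) (hu' : u ∉ Subgroup.zpowers z) (hc : IsConj u u⁻¹)
    {χ : IrrCharacter G} (hχ : χ ∈ principalBlock M G) (hd : (3 : ℤ) ∣ (charDegree (χ : G → ℂ) : ℤ)) :
    (χ : G → ℂ) u = 0 := by
  classical
  haveI := isPrime hM
  have h1 := sum_sq h hM hu hu'
  have hr := fun ψ : IrrCharacter G => rational (h.exp u hu) hc ψ
  choose d hd1 hd2 using hr
  have h2 : ∑ ψ ∈ fs (principalBlock M G), d ψ * d ψ = 9 := by
    have : ((∑ ψ ∈ fs (principalBlock M G), d ψ * d ψ : ℤ) : ℂ) = 9 := by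
      rw [← h1]; push_cast
      refine Finset.sum_congr rfl fun ψ _ => ?_
      rw [hd1, map_intCast]
    exact_mod_cast this
  have h3 : (3 : ℤ) ∣ d χ := by
    have := dvd_sub hd (hd2 χ)
    simpa using this
  have hne : χ ≠ tr1 G := by
    rintro rfl
    rw [deg_tr1] at hd
    omega
  have hd1' : d (tr1 G) = 1 := by
    have := hd1 (tr1 G)
    have h4 : (tr1 G : G → ℂ) u = 1 := rfl
    rw [h4] at this
    exact_mod_cast this.symm
  have h4 : ∑ ψ ∈ ({χ, tr1 G} : Finset (IrrCharacter G)), d ψ * d ψ ≤ ∑ ψ ∈ fs (principalBlock M G), d ψ * d ψ :=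
    Finset.sum_le_sum_of_subset_of_nonneg (by
      intro ψ hψ
      rcases Finset.mem_insert.1 hψ with rfl | hψ
      · exact mem_fs.2 hχ
      · rw [Finset.mem_singleton.1 hψ]; exact mem_fs.2 tr1_mem) fun _ _ _ => mul_self_nonneg _
  rw [Finset.sum_pair hne, hd1', h2] at h4
  obtain ⟨c, hc⟩ := h3
  have h5 : c = 0 := by
    rw [hc] at h4
    nlinarith [sq_nonneg c, sq_nonneg (c - 1), sq_nonneg (c + 1)]
  rw [hd1, hc, h5]; simp

theorem val_mul {u s : G} (hu : u ∈ (P : Subgroup G)) (hu' : u ∉ Subgroup.zpowers z) (hs : Commute u s)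
    (hsr : ¬ 3 ∣ orderOf s) {χ : IrrCharacter G} (hχ : χ ∈ principalBlock M G) :
    (χ : G → ℂ) (u * s) = (χ : G → ℂ) u := by
  haveI : Fact (Nat.Prime 3) := ⟨Nat.prime_three⟩
  obtain ⟨k, hk⟩ := pe_of_P hu
  obtain ⟨N, hN, hN3, hNi⟩ := h.nil hu hu'
  have h1 : (⟨s, mem_Cz.2 hs⟩ : Cz u) ∈ N := by
    rw [mem_of_reg hN3 hNi, Subgroup.orderOf_mk]; exact hsr
  exact eq_of_mem_core hM hk (H := Cz u) (fun g => mem_Cz) hN3 h1 hχ

theorem van {χ : IrrCharacter G} (hreal : ∀ u ∈ (P : Subgroup G), u ∉ Subgroup.zpowers z → IsConj u u⁻¹)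
    (hχ : χ ∈ principalBlock M G) (hd : (3 : ℤ) ∣ (charDegree (χ : G → ℂ) : ℤ)) {u s : G}
    (hu : u ∈ (P : Subgroup G)) (hu' : u ∉ Subgroup.zpowers z) (hs : Commute u s) (hsr : ¬ 3 ∣ orderOf s) :
    (χ : G → ℂ) (u * s) = 0 := by
  rw [val_mul h hM hu hu' hs hsr hχ, val_zero h hM hu hu' (hreal u hu hu') hχ hd]

omit hM in
/-- the star function on 3-elements -/
theorem star_P : IsGeneralizedCharacter (P : Subgroup G)
    (fun x : (P : Subgroup G) => if (x : G) = 1 then (3 : ℂ) else if (x : G) = z then 3 * om else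
      if (x : G) = z⁻¹ then 3 * om ^ 2 else 0) := by
  classical
  haveI : Fact (Nat.Prime 3) := ⟨Nat.prime_three⟩
  have := Fintype.ofFinite (P : Subgroup G)
  set zP : (P : Subgroup G) := ⟨z, h.zP⟩ with hzP
  have hz1 : zP ≠ 1 := fun h1 => h.z1 (congrArg Subtype.val h1)
  have hzi : zP ≠ zP⁻¹ := fun h1 => h.z_ne_inv (congrArg Subtype.val h1)
  have hzi1 : zP⁻¹ ≠ 1 := fun h1 => hz1 (inv_eq_one.1 h1)
  have hzc : ∀ g : (P : Subgroup G), zP * g = g * zP := fun g => Subtype.ext (h.cen g g.2)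
  have hform : (fun x : (P : Subgroup G) => if (x : G) = 1 then (3 : ℂ) else if (x : G) = z then 3 * om else
      if (x : G) = z⁻¹ then 3 * om ^ 2 else 0) =
      fun x : (P : Subgroup G) => if x = 1 then (3 : ℂ) else if x = zP then 3 * om else
      if x = zP⁻¹ then 3 * om ^ 2 else 0 := by
    funext x
    have e1 : (x : G) = 1 ↔ x = 1 := ⟨fun h1 => Subtype.ext h1, fun h1 => by rw [h1]; rfl⟩
    have e2 : (x : G) = z ↔ x = zP := ⟨fun h1 => Subtype.ext h1, fun h1 => by rw [h1]⟩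
    have e3 : (x : G) = z⁻¹ ↔ x = zP⁻¹ := ⟨fun h1 => Subtype.ext h1, fun h1 => by rw [h1]; rfl⟩
    simp only [e1, e2, e3]
  rw [hform, isGeneralized_iff_classInner]
  constructor
  · intro g c
    have e1 : c * g * c⁻¹ = 1 ↔ g = 1 := by
      rw [mul_inv_eq_one, mul_eq_left]
    have e2 : c * g * c⁻¹ = zP ↔ g = zP := by
      rw [mul_inv_eq_iff_eq_mul, hzc, mul_right_inj]
    have e3 : c * g * c⁻¹ = zP⁻¹ ↔ g = zP⁻¹ := by
      have : zP⁻¹ * c = c * zP⁻¹ := by
        rw [inv_mul_eq_iff_eq_mul, ← mul_assoc, hzc, mul_assoc, mul_inv_cancel, mul_one]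
      rw [mul_inv_eq_iff_eq_mul, this, mul_right_inj]
    simp only [e1, e2, e3]
  · intro η hη
    set η' : IrrCharacter (P : Subgroup G) := ⟨η, hη⟩
    obtain ⟨δ, hδ3, hδ⟩ := irr_central hzc η' (Subtype.ext h.z3)
    have hδ' : ∀ g, η (zP * g) = δ * η g := hδ
    have hδ0 : δ ≠ 0 := by rintro rfl; norm_num at hδ3
    have hzinv : η zP⁻¹ = δ ^ 2 * η 1 := by
      have e1 : zP⁻¹ = zP * (zP * 1) := by
        rw [mul_one, inv_eq_iff_mul_eq_one, ← mul_assoc]
        have : zP ^ 3 = 1 := Subtype.ext h.z3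
        rw [← this]; simp only [pow_succ, pow_zero, one_mul]
      rw [e1, hδ', hδ']; ring
    have hz' : η zP = δ * η 1 := by
      have := hδ' 1
      rwa [mul_one] at this
    obtain ⟨dg, hdg⟩ : ∃ n : ℕ, η 1 = n := ⟨charDegree η, (charDegree_cast_irr η').symm⟩
    -- the inner product
    have hsum : ∀ f : ↥(P : Subgroup G) → ℂ, (∀ x, x ≠ 1 → x ≠ zP → x ≠ zP⁻¹ → f x = 0) →
        ∑ x, f x = f 1 + f zP + f zP⁻¹ := by
      intro f hf
      rw [← Finset.sum_subset (Finset.subset_univ ({1, zP, zP⁻¹} : Finset (P : Subgroup G)))]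
      · rw [Finset.sum_insert, Finset.sum_insert, Finset.sum_singleton]
        · ring
        · rw [Finset.mem_singleton]; exact hzi
        · rw [Finset.mem_insert, Finset.mem_singleton]
          rintro (h5 | h5)
          · exact hz1 h5.symm
          · exact hzi1 h5.symm
      · intro x _ hx
        simp only [Finset.mem_insert, Finset.mem_singleton, not_or] at hx
        exact hf x hx.1 hx.2.1 hx.2.2
    have hinner : classInner (fun x : (P : Subgroup G) => if x = 1 then (3 : ℂ) else if x = zP then 3 * om else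
        if x = zP⁻¹ then 3 * om ^ 2 else 0) η = (dg : ℂ) / 9 * (1 + om * conj δ + (om * conj δ) ^ 2) := by
      unfold classInner
      rw [hsum _ (fun x h1 h2 h3 => by beta_reduce; rw [if_neg h1, if_neg h2, if_neg h3, zero_mul]), h.card]
      beta_reduce
      rw [if_pos rfl, if_neg hz1, if_pos rfl, if_neg hzi1, if_neg hzi.symm, if_pos rfl, hz', hzinv, hdg,
        map_mul, map_mul, map_pow, Complex.conj_natCast]
      push_cast; ring
    have hcub : (om * conj δ) ^ 3 = 1 := by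
      rw [mul_pow, om_cube, ← map_pow, hδ3, map_one, mul_one]
    rw [hinner, sum_root hcub]
    split_ifs with h5
    · -- the degree is divisible by 3
      have hdvd : 3 ∣ dg := by
        have hd27 : charDegree η ∣ 3 ^ 3 := by
          have := charDegree_dvd_card (G := (P : Subgroup G)) hη
          rw [h.card] at this
          simpa using this
        have hdg' : dg = charDegree η := by
          have : (dg : ℂ) = charDegree η := by rw [← hdg]; exact (charDegree_cast_irr η').symm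
          exact_mod_cast this
        obtain ⟨j, hj, hjd⟩ := (Nat.dvd_prime_pow Nat.prime_three).1 hd27
        rcases Nat.eq_zero_or_pos j with hj0 | hj0
        · exfalso
          -- linear characters are trivial on `z`
          have h1 : η 1 = 1 := by rw [hdg, hdg', hjd, hj0]; simp
          obtain ⟨x, hx, hx', hxz⟩ : ∃ x ∈ (P : Subgroup G), x ∉ Subgroup.zpowers z ∧
              ∃ q ∈ (P : Subgroup G), q * x * q⁻¹ = x * z := by
            have hex : ∃ x ∈ (P : Subgroup G), x ∉ Subgroup.zpowers z := by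
              by_contra hcon
              push Not at hcon
              have hle : (P : Subgroup G) ≤ Subgroup.zpowers z := hcon
              have := Subgroup.card_le_of_le hle
              rw [h.card, h.card_zp] at this
              omega
            obtain ⟨x, hx, hx'⟩ := hex
            obtain ⟨q, hq, hqx⟩ := h.conj_mul hx hx' (Subgroup.mem_zpowers z)
            exact ⟨x, hx, hx', q, hq, hqx⟩
          obtain ⟨q, hq, hqx⟩ := hxz
          have hmul := hη.isCharacter.map_mul_of_linear h1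
          have e1 : η (⟨q, hq⟩ * ⟨x, hx⟩ * ⟨q, hq⟩⁻¹) = η ⟨x, hx⟩ := hη.isClassFunction _ _
          have e2 : (⟨q, hq⟩ * ⟨x, hx⟩ * ⟨q, hq⟩⁻¹ : (P : Subgroup G)) = ⟨x, hx⟩ * zP := Subtype.ext hqx
          rw [e2, hmul] at e1
          have hx0 : η ⟨x, hx⟩ ≠ 0 := by
            intro h6
            have := hmul ⟨x, hx⟩ ⟨x, hx⟩⁻¹
            rw [mul_inv_cancel, h1, h6, zero_mul] at this
            exact one_ne_zero this
          have e3 : η zP = 1 := by
            have : η ⟨x, hx⟩ * η zP = η ⟨x, hx⟩ * 1 := by rw [e1, mul_one]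
            exact mul_left_cancel₀ hx0 this
          rw [hz', h1, mul_one] at e3
          rw [e3, map_one, mul_one] at h5
          exact om_ne_one h5
        · rw [hdg', hjd]
          exact dvd_pow_self 3 hj0.ne'
      obtain ⟨c, hc⟩ := hdvd
      refine ⟨c, ?_⟩
      rw [hc]; push_cast; ring
    · exact ⟨0, by simp⟩

end

end Cfsg.Agent.Lib.H16XI
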