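import Cfsg.Agent.Lib.H16XI

/-!
# The contribution table of the principal 3-block: construction (helper16)
-/

set_option autoImplicit false
set_option linter.all false

namespace Cfsg.Agent.Lib.H16XI

open Cfsg Cfsg.Agent.Lib Cfsg.Agent.Lib.BlockRing Cfsg.Agent.Lib.BlockGA Cfsg.Agent.Lib.BlockIdem
open Cfsg.Agent.Lib.BlockPair Cfsg.Agent.Lib.Contrib Cfsg.Agent.Lib.BlockSection
open Cfsg.Agent.Lib.CharBasic Cfsg.Agent.Lib.H16XE Cfsg.Agent.Lib.H16XG Cfsg.Agent.Lib.PPart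
open Cfsg.Agent.Lib.Subsec (Cz mem_Cz fs mem_fs sum_fs al al_eq)
open Cfsg.Agent.Lib.H16XA (XD XS zL XL mem_XL mem_zpL)
open Cfsg.Agent.Lib.BlockDefect Cfsg.Agent.Lib.BlockDeg Cfsg.Agent.Lib.H16XT
open scoped ComplexConjugate Classical

universe u

variable {M : Ideal AlgInt} {G : Type u} [Group G] [Finite G]
variable {P : Sylow 3 G} {z : G} {X : Finset G} (h : XS P z X) (hM : IsPModular 3 M)

section
include h hM

theorem Van_L {ψ : IrrCharacter G} (hψ : ψ ∈ principalBlock M G) (hd : (3 : ℤ) ∣ (charDegree (ψ : G → ℂ) : ℤ)) :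
    Van h.toXD.PL (zL z) (fun l : H16XA.Cn z => (ψ : G → ℂ) (l : G)) := by
  intro u hu hu' s hs hsr
  rw [mem_zpL] at hu'
  show (ψ : G → ℂ) ((u : G) * (s : G)) = 0
  exact van h.toXD hM h.real hψ hd hu hu' (congrArg Subtype.val hs) (by rwa [Subgroup.orderOf_coe])

omit h hM in
theorem irr_gen (χ : IrrCharacter G) : IsGeneralizedCharacter G (χ : G → ℂ) := by
  have := Fintype.ofFinite G
  rw [isGeneralized_iff_classInner]
  refine ⟨χ.2.isClassFunction, fun η hη => ?_⟩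
  have := irr_orthonormal χ ⟨η, hη⟩
  rw [this]
  split_ifs
  · exact ⟨1, by simp⟩
  · exact ⟨0, by simp⟩

theorem int_cn {χ ψ : IrrCharacter G} (hχ : χ ∈ principalBlock M G) (hψ : ψ ∈ principalBlock M G)
    (hd : (3 : ℤ) ∣ (charDegree (ψ : G → ℂ) : ℤ)) :
    (9 * cn 3 z (χ : G → ℂ) (ψ : G → ℂ) ∈ EZ) ∧
    ((3 : ℤ) ∣ (charDegree (χ : G → ℂ) : ℤ) → 3 * cn 3 z (χ : G → ℂ) (ψ : G → ℂ) ∈ EZ) := by
  have := Fintype.ofFinite (Cz z)
  have hzc : ∀ g : H16XA.Cn z, zL z * g = g * zL z := fun g =>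
    Subtype.ext (Subgroup.mem_centralizer_singleton_iff.1 g.2).symm
  have h1 := int_main h.cent hzc (θ := fun l : H16XA.Cn z => (χ : G → ℂ) (l : G))
    (φ := fun l : H16XA.Cn z => (ψ : G → ℂ) (l : G))
    ((irr_gen χ).restrict _) ((irr_gen ψ).restrict _) (Van_L h hM hψ hd)
  have h2 : cn 3 z (χ : G → ℂ) (ψ : G → ℂ) = (Nat.card (H16XA.Cn z) : ℂ)⁻¹ * ∑ s : H16XA.Cn z,
      (if 3 ∣ orderOf s then 0 else (fun l : H16XA.Cn z => (χ : G → ℂ) (l : G)) (zL z * s) *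
        conj ((fun l : H16XA.Cn z => (ψ : G → ℂ) (l : G)) (zL z * s))) := by
    unfold cn
    rw [J_eq]
    rfl
  rw [h2]
  exact ⟨h1.1, fun h3 => h1.2 (Van_L h hM hχ h3)⟩

end

section
include h

/-- the star identity -/
theorem star_int (χ : IrrCharacter G) : ∃ n : ℤ, 3 * (cn 3 1 (χ : G → ℂ) (χ : G → ℂ) -
    cn 3 z (χ : G → ℂ) (χ : G → ℂ)) = n := by
  haveI : Fact (Nat.Prime 3) := ⟨Nat.prime_three⟩
  have := Fintype.ofFinite G
  have hd := h.toXD
  obtain ⟨e, f, he⟩ := exists_isRegExp 3 Nat.prime_three G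
  set η : G → ℂ := fun x => if x = 1 then 3 else if IsConj x z then 3 * om else if IsConj x z⁻¹ then 3 * om ^ 2 else 0
    with hη
  have hηc : IsClassFunction G η := by
    intro g c
    have e1 : c * g * c⁻¹ = 1 ↔ g = 1 := by rw [mul_inv_eq_one, mul_eq_left]
    have e2 : ∀ w, IsConj (c * g * c⁻¹) w ↔ IsConj g w := fun w =>
      ⟨fun h1 => (isConj_iff.2 ⟨c, rfl⟩ : IsConj g (c * g * c⁻¹)).trans h1,
        fun h1 => (isConj_iff.2 ⟨c, rfl⟩ : IsConj g (c * g * c⁻¹)).symm.trans h1⟩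
    simp only [hη, e1, e2]
  have hzconj : ∀ x ∈ (P : Subgroup G), (IsConj x z ↔ x = z) := by
    intro x hx
    constructor
    · intro h1
      obtain ⟨c, hc⟩ := isConj_iff.1 h1.symm
      exact hd.eq_of_conj hx hc
    · rintro rfl; exact IsConj.refl _
  have hziconj : ∀ x ∈ (P : Subgroup G), (IsConj x z⁻¹ ↔ x = z⁻¹) := by
    intro x hx
    constructor
    · intro h1
      obtain ⟨c, hc⟩ := isConj_iff.1 h1.symm
      have h2 : c * z * c⁻¹ = x⁻¹ := by rw [← hc]; group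
      have h3 := hd.eq_of_conj ((P : Subgroup G).inv_mem hx) h2
      rw [← h3, inv_inv]
    · rintro rfl; exact IsConj.refl _
  have hηP : IsGeneralizedCharacter (P : Subgroup G) (fun x : (P : Subgroup G) => η x) := by
    have h1 := star_P hd
    have h2 : (fun x : (P : Subgroup G) => η x) = (fun x : (P : Subgroup G) => if (x : G) = 1 then (3 : ℂ)
        else if (x : G) = z then 3 * om else if (x : G) = z⁻¹ then 3 * om ^ 2 else 0) := by
      funext x
      simp only [hη, hzconj x x.2, hziconj x x.2]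
    rw [h2]; exact h1
  have hΘ := star_gen he P hηc hηP
  have hχΘ := (irr_gen χ).mul hΘ
  obtain ⟨n, hn⟩ := hχΘ.classInner_int (irr_gen χ)
  refine ⟨n, ?_⟩
  rw [← hn]
  unfold classInner
  have hcf : IsClassFunction G (fun g => (χ : G → ℂ) g * η (g ^ f) * conj ((χ : G → ℂ) g)) := by
    intro g c
    simp only
    rw [conj_pow, χ.2.isClassFunction, hηc]
  have h3 := avg_rep (p := 3) hcf (RR_pe h) (RR_rep h)
  have h4 : (Nat.card G : ℂ)⁻¹ * ∑ g : G, ((χ : G → ℂ) * fun g => η (g ^ f)) g * conj ((χ : G → ℂ) g) =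
      ∑ x ∈ RR z X, (Nat.card (Cz x) : ℂ)⁻¹ * J 3 x (fun g => (χ : G → ℂ) g * η (g ^ f) * conj ((χ : G → ℂ) g)) := h3
  have h5 : ∀ x ∈ RR z X, (Nat.card (Cz x) : ℂ)⁻¹ * J 3 x (fun g => (χ : G → ℂ) g * η (g ^ f) * conj ((χ : G → ℂ) g)) =
      η x * cn 3 x (χ : G → ℂ) (χ : G → ℂ) := by
    intro x hx
    have := Fintype.ofFinite (Cz x)
    unfold cn
    rw [J_eq, J_eq, mul_left_comm]
    congr 1
    rw [Finset.mul_sum]
    refine Finset.sum_congr rfl fun s _ => ?_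
    split_ifs with hs
    · rw [mul_zero]
    · have hxs := mem_Cz.1 s.2
      have e1 := he.eq_of_mul (g := x * (s : G)) (s := (s : G)) (u := x) hxs hxs.symm
        (by rwa [Subgroup.orderOf_coe]) (RR_pe h x hx)
      rw [e1.2]; ring
  have e1 : η 1 = 3 := by simp only [hη, if_true]
  have e2 : η z = 3 * om := by
    simp only [hη]
    rw [if_neg hd.z1, if_pos (IsConj.refl z)]
  have hzi1 : z⁻¹ ≠ 1 := fun h1 => hd.z1 (inv_eq_one.1 h1)
  have e3 : η z⁻¹ = 3 * om ^ 2 := by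
    simp only [hη]
    rw [if_neg hzi1, if_neg, if_pos (IsConj.refl _)]
    rw [hzconj _ ((P : Subgroup G).inv_mem hd.zP)]
    exact fun h1 => hd.z_ne_inv h1.symm
  have e4 : ∀ x ∈ X, η x = 0 := by
    intro x hx
    obtain ⟨hxP, hxz⟩ := h.sub x hx
    rw [hd.mem_zp, not_or, not_or] at hxz
    simp only [hη]
    rw [if_neg hxz.1, if_neg, if_neg]
    · rw [hziconj x hxP]; exact hxz.2.2
    · rw [hzconj x hxP]; exact hxz.2.1
  rw [h4, Finset.sum_congr rfl h5, sum_RR h, Finset.sum_eq_zero (fun x hx => by rw [e4 x hx, zero_mul]), e1, e2, e3,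
    cn_inv, add_zero]
  have := one_add_om_add
  linear_combination (-3 * cn 3 z (χ : G → ℂ) (χ : G → ℂ)) * this

end

end Cfsg.Agent.Lib.H16XI
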