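import Cfsg.Agent.Lib.H16XJ

/-!
# The contribution table of the principal 3-block: the table (helper16)
-/

set_option autoImplicit false
set_option linter.all false

namespace Cfsg.Agent.Lib.H16XI

open Cfsg Cfsg.Agent.Lib Cfsg.Agent.Lib.BlockRing Cfsg.Agent.Lib.BlockGA Cfsg.Agent.Lib.BlockIdem
open Cfsg.Agent.Lib.BlockPair Cfsg.Agent.Lib.Contrib Cfsg.Agent.Lib.BlockSection
open Cfsg.Agent.Lib.CharBasic Cfsg.Agent.Lib.H16XE Cfsg.Agent.Lib.H16XG Cfsg.Agent.Lib.PPart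
open Cfsg.Agent.Lib.Subsec (Cz mem_Cz fs mem_fs sum_fs al al_eq)
open Cfsg.Agent.Lib.H16XA (XD XS zL XL mem_XL mem_zpL)
open Cfsg.Agent.Lib.BlockDefect Cfsg.Agent.Lib.BlockDeg Cfsg.Agent.Lib.H16XT
open scoped ComplexConjugate Classical

universe u

variable {M : Ideal AlgInt} {G : Type u} [Group G] [Finite G]
variable {P : Sylow 3 G} {z : G} {X : Finset G} (h : XS P z X) (hM : IsPModular 3 M)

noncomputable instance fintypeB : Fintype (principalBlock M G) := Fintype.ofFinite _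

section
include h hM

theorem defect_G : blockDefect 3 (principalBlock M G) = 3 := by
  haveI : Fact (Nat.Prime 3) := ⟨Nat.prime_three⟩
  rw [Contrib2.blockDefect_principal hM, fact_G h]

theorem cnx {x : G} (hx : x ∈ X) {χ ψ : IrrCharacter G} (hχ : χ ∈ principalBlock M G) (hψ : ψ ∈ principalBlock M G) :
    cn 3 x (χ : G → ℂ) (ψ : G → ℂ) = (χ : G → ℂ) x * conj ((ψ : G → ℂ) x) / 9 := by
  haveI : Fact (Nat.Prime 3) := ⟨Nat.prime_three⟩
  obtain ⟨hxP, hxz⟩ := h.sub x hx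
  obtain ⟨k, hk⟩ := pe_of_P hxP
  obtain ⟨N, hN, hN3, hNi⟩ := h.toXD.nil hxP hxz
  rw [cn_nil hM hk hN3 hNi hχ hψ]
  norm_num

theorem alpha_ne {χ ψ : IrrCharacter G} (hχ : χ ∈ principalBlock M G) (hψ : ψ ∈ principalBlock M G)
    (h0 : ¬ (3 : ℤ) ∣ (charDegree (ψ : G → ℂ) : ℤ)) : cn 3 z (χ : G → ℂ) (ψ : G → ℂ) ≠ 0 := by
  haveI : Fact (Nat.Prime 3) := ⟨Nat.prime_three⟩
  haveI := isPrime hM
  obtain ⟨k, hk⟩ := pe_of_P h.toXD.zP
  haveI : NeZero (3 ^ (k + 1)) := ⟨by positivity⟩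
  have hind := ind_principal hM (u := z) ⟨k, hk⟩
  have hd : blockDefect 3 (principalBlock M (Cz z)) = blockDefect 3 (principalBlock M G) := by
    rw [defect_G h hM]
    exact defect_G h.cent hM
  have h1 := Subsec.al_ne_zero hM hk hind hd hχ hψ ((height_zero_iff ψ).2 h0)
  rw [al_eq_cn hM hk hχ hψ] at h1
  exact (mul_ne_zero_iff.1 h1).2

/-- the table -/
theorem exists_tab : ∃ t : Tab (principalBlock M G) X,
    (∀ χ ψ, (t.a χ ψ : ℂ) = 27 * cn 3 1 ((χ : IrrCharacter G) : G → ℂ) ((ψ : IrrCharacter G) : G → ℂ)) ∧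
    (∀ χ ψ, t.α χ ψ = 27 * cn 3 z ((χ : IrrCharacter G) : G → ℂ) ((ψ : IrrCharacter G) : G → ℂ)) ∧
    (∀ y χ, (t.d y χ : ℂ) = ((χ : IrrCharacter G) : G → ℂ) (y : G)) ∧
    (∀ χ, t.deg χ = charDegree ((χ : IrrCharacter G) : G → ℂ)) ∧
    ((t.o : IrrCharacter G) = tr1 G) := by
  haveI : Fact (Nat.Prime 3) := ⟨Nat.prime_three⟩
  haveI := isPrime hM
  have hd := h.toXD
  have hB : IsPBlock M (principalBlock M G) := BlockThird.isPBlock_principal
  have hdef := defect_G h hM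
  obtain ⟨m, hm1, hm2, hm3, hm4, hm5, hm6, hm7, hm8, hm9⟩ := exists_matrix hM hB
  rw [hdef] at hm1 hm6 hm8 hm9
  have hr : ∀ x : X, ∀ χ : IrrCharacter G, ∃ d : ℤ, (χ : G → ℂ) x = d ∧ (3 : ℤ) ∣ (charDegree (χ : G → ℂ) : ℤ) - d := by
    intro x χ
    obtain ⟨hxP, hxz⟩ := h.sub x x.2
    exact rational (hd.exp x hxP) (h.real x hxP hxz) χ
  choose d hd1 hd2 using hr
  have hRx : ∀ x : X, (x : G) ∈ RR z X := fun x => mem_RR.2 (Or.inr (Or.inr (Or.inr x.2)))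
  have hRz : z ∈ RR z X := mem_RR.2 (Or.inr (Or.inl rfl))
  have hRz' : z⁻¹ ∈ RR z X := mem_RR.2 (Or.inr (Or.inr (Or.inl rfl)))
  have hR1 : (1 : G) ∈ RR z X := mem_RR.2 (Or.inl rfl)
  have hpe := RR_pe h
  have hzzi : ¬ IsConj z z⁻¹ := fun h1 => hd.z_ne_inv (RR_uniq h hRz hRz' h1)
  have hzx : ∀ x : X, ¬ IsConj z x := by
    intro x h1
    have := RR_uniq h hRz (hRx x) h1
    apply (h.sub x x.2).2
    rw [← this]; exact Subgroup.mem_zpowers z
  -- height in terms of the degree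
  have hh1 : ∀ χ : IrrCharacter G, (3 : ℤ) ∣ (charDegree (χ : G → ℂ) : ℤ) →
      blockHeight 3 (principalBlock M G) (χ : G → ℂ) ≠ 0 := fun χ h1 h2 => (height_zero_iff χ).1 h2 h1
  -- sums over the block
  have hsum : ∀ f : IrrCharacter G → ℂ, ∑ χ : principalBlock M G, f χ = ∑ χ ∈ fs (principalBlock M G), f χ :=
    fun f => (sum_fs _ f).symm
  have hsumZ : ∀ f : IrrCharacter G → ℤ, ∑ χ : principalBlock M G, f χ = ∑ᶠ χ ∈ principalBlock M G, f χ := by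
    intro f
    rw [finsum_mem_eq_finite_toFinset_sum _ (Set.toFinite _), ← sum_fs]
  have hα0 : ∀ χ : G → ℂ, ∀ θ : IrrCharacter G,
      ∑ ψ ∈ fs (principalBlock M G), cn 3 z χ (ψ : G → ℂ) * cn 3 z (θ : G → ℂ) (ψ : G → ℂ) = 0 := by
    intro χ θ
    rw [← cn_cross hM hB (hpe z hRz) (hpe z⁻¹ hRz') hzzi χ (θ : G → ℂ)]
    exact Finset.sum_congr rfl fun ψ _ => by rw [cn_inv]
  have hdval : ∀ x : X, ∀ ψ ∈ fs (principalBlock M G), cn 3 (x : G) (ψ : G → ℂ) (tr1 G : G → ℂ) = (d x ψ : ℂ) / 9 := by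
    intro x ψ hψ
    rw [cnx h hM x.2 (mem_fs.1 hψ) tr1_mem, hd1]
    have : (tr1 G : G → ℂ) x = 1 := rfl
    rw [this, map_one, mul_one]
  have hdval' : ∀ x : X, ∀ ψ ∈ fs (principalBlock M G), cn 3 (x : G) (tr1 G : G → ℂ) (ψ : G → ℂ) = (d x ψ : ℂ) / 9 := by
    intro x ψ hψ
    rw [← cn_conj, hdval x ψ hψ, map_div₀, map_intCast]
    congr 1
    exact Complex.conj_ofNat 9
  have hαre : ∀ χ : IrrCharacter G, conj (27 * cn 3 z (χ : G → ℂ) (χ : G → ℂ)) = 27 * cn 3 z (χ : G → ℂ) (χ : G → ℂ) := by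
    intro χ
    rw [map_mul, cn_conj]
    congr 1
    exact Complex.conj_ofNat 27
  refine ⟨{
    a := fun χ ψ => m χ ψ
    α := fun χ ψ => 27 * cn 3 z ((χ : IrrCharacter G) : G → ℂ) ((ψ : IrrCharacter G) : G → ℂ)
    d := fun x χ => d x χ
    o := ⟨tr1 G, tr1_mem⟩
    deg := fun χ => charDegree ((χ : IrrCharacter G) : G → ℂ)
    l := (∑ χ : principalBlock M G, 27 * cn 3 z ((χ : IrrCharacter G) : G → ℂ) ((χ : IrrCharacter G) : G → ℂ)).re / 27
    h1 := ?_, aid := ?_, apos := fun χ => hm7 χ χ.2, alt := ?_, αh := ?_, αid := ?_, α0 := ?_, αd := ?_, dd := ?_,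
    deg0 := ?_, dego := ?_, dc := fun y χ => hd2 y χ, do1 := ?_, a0 := ?_, a3 := ?_, a9 := ?_, α1 := ?_, α3 := ?_,
    α9 := ?_, s9 := ?_, αtr := ?_ }, ?_, ?_, ?_, ?_, ?_⟩
  · -- h1
    intro χ ψ
    have := Fintype.ofFinite G
    have h1 := inner_rep (p := 3) (χ : IrrCharacter G).2.isClassFunction (ψ : IrrCharacter G).2.isClassFunction
      (RR_pe h) (RR_rep h)
    rw [irr_orthonormal, sum_RR h, cn_inv] at h1
    have h2 : ∑ x ∈ X, cn 3 x ((χ : IrrCharacter G) : G → ℂ) ((ψ : IrrCharacter G) : G → ℂ) =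
        (∑ y : X, (d y χ : ℂ) * d y ψ) / 9 := by
      rw [← Finset.sum_coe_sort X (fun x => cn 3 x ((χ : IrrCharacter G) : G → ℂ) ((ψ : IrrCharacter G) : G → ℂ)),
        Finset.sum_div]
      refine Finset.sum_congr rfl fun x _ => ?_
      rw [cnx h hM x.2 χ.2 ψ.2, hd1, hd1, map_intCast]
    rw [h2, cn_one] at h1
    rw [hm1 χ χ.2 ψ ψ.2]
    have h3 : conj (27 * cn 3 z ((χ : IrrCharacter G) : G → ℂ) ((ψ : IrrCharacter G) : G → ℂ)) =
        27 * cn 3 z ((ψ : IrrCharacter G) : G → ℂ) ((χ : IrrCharacter G) : G → ℂ) := by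
      rw [map_mul, cn_conj]
      congr 1
      exact Complex.conj_ofNat 27
    rw [h3]
    by_cases h5 : χ = ψ
    · rw [if_pos h5]
      rw [if_pos (congrArg Subtype.val h5)] at h1
      push_cast
      linear_combination (-27 : ℂ) * h1
    · rw [if_neg h5]
      rw [if_neg (fun h6 => h5 (Subtype.ext h6))] at h1
      push_cast
      linear_combination (-27 : ℂ) * h1
  · -- aid
    intro χ
    have h1 := hm6 χ χ.2 χ χ.2
    rw [← hsumZ (fun ψ => m χ ψ * m ψ χ)] at h1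
    rw [show (27 : ℤ) = ((3 : ℕ) : ℤ) ^ 3 by norm_num, ← h1]
    refine Finset.sum_congr rfl fun ψ _ => ?_
    rw [hm2 ψ ψ.2 χ χ.2]
  · -- alt
    intro χ
    have h1 := hm8 χ χ.2
    have h2 := fun h3 => hm9 χ χ.2 h3
    have h4 : m χ χ ≠ ((3 : ℕ) : ℤ) ^ 3 := fun h5 => by simpa using h2 h5
    have h6 : ((3 : ℕ) : ℤ) ^ 3 = 27 := by norm_num
    rw [h6] at h1 h4
    exact lt_of_le_of_ne h1 h4
  · -- αh
    intro χ ψ
    rw [map_mul, cn_conj]
    congr 1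
    exact Complex.conj_ofNat 27
  · -- αid
    intro χ θ
    rw [hsum (fun ψ => 27 * cn 3 z ((χ : IrrCharacter G) : G → ℂ) (ψ : G → ℂ) *
      (27 * cn 3 z (ψ : G → ℂ) ((θ : IrrCharacter G) : G → ℂ)))]
    have h1 := cn_idem hM hB hpe (RR_rep h) hRz ((χ : IrrCharacter G) : G → ℂ) θ.2
    rw [← h1, Finset.mul_sum, Finset.mul_sum]
    refine Finset.sum_congr rfl fun ψ _ => ?_
    ring
  · -- α0
    intro χ θ
    rw [hsum (fun ψ => 27 * cn 3 z ((χ : IrrCharacter G) : G → ℂ) (ψ : G → ℂ) *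
      (27 * cn 3 z ((θ : IrrCharacter G) : G → ℂ) (ψ : G → ℂ)))]
    have h1 := hα0 ((χ : IrrCharacter G) : G → ℂ) θ
    have h2 : ∑ ψ ∈ fs (principalBlock M G), 27 * cn 3 z ((χ : IrrCharacter G) : G → ℂ) (ψ : G → ℂ) *
      (27 * cn 3 z ((θ : IrrCharacter G) : G → ℂ) (ψ : G → ℂ)) = 27 * 27 * ∑ ψ ∈ fs (principalBlock M G),
        cn 3 z ((χ : IrrCharacter G) : G → ℂ) (ψ : G → ℂ) * cn 3 z ((θ : IrrCharacter G) : G → ℂ) (ψ : G → ℂ) := by
      rw [Finset.mul_sum]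
      exact Finset.sum_congr rfl fun ψ _ => by ring
    rw [h2, h1, mul_zero]
  · -- αd
    intro χ y
    rw [hsum (fun ψ => 27 * cn 3 z ((χ : IrrCharacter G) : G → ℂ) (ψ : G → ℂ) * (d y ψ : ℂ))]
    have h1 := cn_cross hM hB (hpe z hRz) (hpe y (hRx y)) (hzx y) ((χ : IrrCharacter G) : G → ℂ) (tr1 G : G → ℂ)
    have h2 : ∑ ψ ∈ fs (principalBlock M G), 27 * cn 3 z ((χ : IrrCharacter G) : G → ℂ) (ψ : G → ℂ) * (d y ψ : ℂ) =
        27 * 9 * ∑ ψ ∈ fs (principalBlock M G), cn 3 z ((χ : IrrCharacter G) : G → ℂ) (ψ : G → ℂ) *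
          cn 3 (y : G) (ψ : G → ℂ) (tr1 G : G → ℂ) := by
      rw [Finset.mul_sum]
      refine Finset.sum_congr rfl fun ψ hψ => ?_
      rw [hdval y ψ hψ]; ring
    rw [h2, h1, mul_zero]
  · -- dd
    intro y y'
    have h0 : ((∑ χ : principalBlock M G, d y χ * d y' χ : ℤ) : ℂ) =
        ∑ χ ∈ fs (principalBlock M G), (d y χ : ℂ) * (d y' χ : ℂ) := by
      rw [← hsum (fun χ => (d y χ : ℂ) * (d y' χ : ℂ))]
      push_cast; rfl
    split_ifs with hyy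
    · subst hyy
      have h1 := sum_sq hd hM (h.sub y y.2).1 (h.sub y y.2).2
      have h2 : ∑ χ ∈ fs (principalBlock M G), (d y χ : ℂ) * (d y χ : ℂ) = 9 := by
        rw [← h1]
        refine Finset.sum_congr rfl fun χ _ => ?_
        rw [hd1, map_intCast]
      rw [h2] at h0
      exact_mod_cast h0
    · have hne : ¬ IsConj (y : G) (y' : G) := fun h1 => hyy (Subtype.ext (RR_uniq h (hRx y) (hRx y') h1))
      have h1 := cn_cross hM hB (hpe y (hRx y)) (hpe y' (hRx y')) hne (tr1 G : G → ℂ) (tr1 G : G → ℂ)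
      have h2 : ∑ χ ∈ fs (principalBlock M G), (d y χ : ℂ) * (d y' χ : ℂ) = 81 *
          ∑ ψ ∈ fs (principalBlock M G), cn 3 (y : G) (tr1 G : G → ℂ) (ψ : G → ℂ) *
            cn 3 (y' : G) (ψ : G → ℂ) (tr1 G : G → ℂ) := by
        rw [Finset.mul_sum]
        refine Finset.sum_congr rfl fun ψ hψ => ?_
        rw [hdval y' ψ hψ, hdval' y ψ hψ]; ring
      rw [h2, h1, mul_zero] at h0
      exact_mod_cast h0
  · -- deg0
    intro y
    have h1 := BlockOrth.block_orthogonality hM hB (g := (y : G)) (h := 1) (u := (y : G)) (v := 1)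
      ⟨1, mul_one _, Commute.one_right _, hpe y (hRx y), by rw [orderOf_one]; norm_num⟩
      ⟨1, mul_one _, Commute.one_right _, hpe 1 hR1, by rw [orderOf_one]; norm_num⟩ (fun h2 => by
        have := RR_uniq h (hRx y) hR1 h2
        exact (h.sub y y.2).2 (by rw [this]; exact Subgroup.one_mem _))
    rw [finsum_mem_eq_finite_toFinset_sum _ (Set.toFinite _)] at h1
    have h2 : ((∑ χ : principalBlock M G, d y χ * (charDegree ((χ : IrrCharacter G) : G → ℂ) : ℤ) : ℤ) : ℂ) = 0 := by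
      push_cast
      rw [hsum (fun χ => (d y χ : ℂ) * (charDegree (χ : G → ℂ) : ℂ))]
      refine Eq.trans ?_ h1
      refine Finset.sum_congr rfl fun χ _ => ?_
      rw [hd1, inv_one, charDegree_cast_irr]
    exact_mod_cast h2
  · -- dego
    show ((charDegree (tr1 G : G → ℂ) : ℕ) : ℤ) = 1
    rw [deg_tr1]; rfl
  · -- do1
    intro y
    have h1 : ((d y (tr1 G) : ℤ) : ℂ) = 1 := (hd1 y (tr1 G)).symm
    exact_mod_cast h1
  · -- a0
    intro χ ψ hχ h1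
    have h1' : m χ ψ = 0 := h1
    have h2 := hm4 χ χ.2 ψ ψ.2 ((height_zero_iff _).2 hχ)
    rw [h1'] at h2
    exact h2 (dvd_zero _)
  · -- a3
    intro χ ψ hψ
    have h1 := hm3 χ χ.2 ψ ψ.2
    refine dvd_trans ?_ h1
    exact dvd_pow_self _ (hh1 _ hψ)
  · -- a9
    intro χ ψ hχ hψ
    have h1 := hm5 χ χ.2 ψ ψ.2 (hh1 _ hχ)
    refine dvd_trans ?_ h1
    have h2 := hh1 _ hψ
    have : (9 : ℤ) = ((3 : ℕ) : ℤ) ^ 2 := by norm_num
    rw [this]
    exact pow_dvd_pow _ (by omega)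
  · -- α1
    intro χ ψ hχ
    have h1 := alpha_ne h hM ψ.2 χ.2 hχ
    refine mul_ne_zero (by norm_num) ?_
    rw [← cn_conj]
    exact (map_ne_zero _).2 h1
  · -- α3
    intro χ ψ hψ
    have h1 := (int_cn h hM χ.2 ψ.2 hψ).1
    have : 27 * cn 3 z ((χ : IrrCharacter G) : G → ℂ) ((ψ : IrrCharacter G) : G → ℂ) / 3 =
      9 * cn 3 z ((χ : IrrCharacter G) : G → ℂ) ((ψ : IrrCharacter G) : G → ℂ) := by ring
    rw [this]; exact h1
  · -- α9
    intro χ ψ hχ hψ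
    have h1 := (int_cn h hM χ.2 ψ.2 hψ).2 hχ
    have : 27 * cn 3 z ((χ : IrrCharacter G) : G → ℂ) ((ψ : IrrCharacter G) : G → ℂ) / 9 =
      3 * cn 3 z ((χ : IrrCharacter G) : G → ℂ) ((ψ : IrrCharacter G) : G → ℂ) := by ring
    rw [this]; exact h1
  · -- s9
    intro χ
    obtain ⟨n, hn⟩ := star_int h (χ : IrrCharacter G)
    refine ⟨n, ?_⟩
    rw [hm1 χ χ.2 χ χ.2, ← hn, cn_one]
    push_cast; ring
  · -- αtr
    set S := ∑ χ : principalBlock M G, 27 * cn 3 z ((χ : IrrCharacter G) : G → ℂ) ((χ : IrrCharacter G) : G → ℂ)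
      with hS
    have h1 : conj S = S := by
      rw [hS, map_sum]
      exact Finset.sum_congr rfl fun χ _ => hαre χ
    have h2 := Complex.conj_eq_iff_re.1 h1
    push_cast
    rw [h2]
    ring
  · intro χ ψ
    show (m χ ψ : ℂ) = _
    rw [hm1 χ χ.2 ψ ψ.2, cn_one]
    push_cast; ring
  · intro χ ψ; rfl
  · intro y χ; exact (hd1 y χ).symm
  · intro χ; rfl
  · rfl

end

end Cfsg.Agent.Lib.H16XI
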