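import Cfsg.Agent.Lib.H16XG

/-!
# The contribution table of a principal 3-block with extraspecial defect group of order 27 (helper16)
-/

set_option autoImplicit false
set_option linter.all false

namespace Cfsg.Agent.Lib.H16XT

open Cfsg.Agent.Lib.H16XG
open scoped ComplexConjugate

/-- abstract contribution table -/
structure Tab (ι Y : Type*) [Fintype ι] [DecidableEq ι] [Fintype Y] [DecidableEq Y] where
  a : ι → ι → ℤ
  α : ι → ι → ℂ
  d : Y → ι → ℤ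
  o : ι
  deg : ι → ℤ
  l : ℝ
  h1 : ∀ χ ψ, (a χ ψ : ℂ) + α χ ψ + conj (α χ ψ) + 3 * ∑ y, (d y χ : ℂ) * d y ψ = if χ = ψ then 27 else 0
  aid : ∀ χ, ∑ ψ, a χ ψ * a χ ψ = 27 * a χ χ
  apos : ∀ χ, 0 < a χ χ
  alt : ∀ χ, a χ χ < 27
  αh : ∀ χ ψ, conj (α χ ψ) = α ψ χ
  αid : ∀ χ θ, ∑ ψ, α χ ψ * α ψ θ = 27 * α χ θ
  α0 : ∀ χ θ, ∑ ψ, α χ ψ * α θ ψ = 0
  αd : ∀ χ y, ∑ ψ, α χ ψ * (d y ψ : ℂ) = 0
  dd : ∀ y y', ∑ χ, d y χ * d y' χ = if y = y' then 9 else 0
  deg0 : ∀ y, ∑ χ, d y χ * deg χ = 0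
  dego : deg o = 1
  dc : ∀ y χ, (3 : ℤ) ∣ deg χ - d y χ
  do1 : ∀ y, d y o = 1
  a0 : ∀ χ ψ, ¬ (3 : ℤ) ∣ deg χ → a χ ψ ≠ 0
  a3 : ∀ χ ψ, (3 : ℤ) ∣ deg ψ → (3 : ℤ) ∣ a χ ψ
  a9 : ∀ χ ψ, (3 : ℤ) ∣ deg χ → (3 : ℤ) ∣ deg ψ → (9 : ℤ) ∣ a χ ψ
  α1 : ∀ χ ψ, ¬ (3 : ℤ) ∣ deg χ → α χ ψ ≠ 0
  α3 : ∀ χ ψ, (3 : ℤ) ∣ deg ψ → α χ ψ / 3 ∈ EZ
  α9 : ∀ χ ψ, (3 : ℤ) ∣ deg χ → (3 : ℤ) ∣ deg ψ → α χ ψ / 9 ∈ EZ
  s9 : ∀ χ, ∃ s : ℤ, (a χ χ : ℂ) - α χ χ = 9 * s
  αtr : ∑ χ, α χ χ = 27 * (l : ℂ)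

namespace Tab

variable {ι Y : Type*} [Fintype ι] [DecidableEq ι] [Fintype Y] [DecidableEq Y] (t : Tab ι Y)

/-- height zero -/
def Z : Finset ι := Finset.univ.filter (fun χ => ¬ (3 : ℤ) ∣ t.deg χ)
/-- positive height -/
def Q : Finset ι := Finset.univ.filter (fun χ => (3 : ℤ) ∣ t.deg χ)

theorem mem_Z {χ : ι} : χ ∈ t.Z ↔ ¬ (3 : ℤ) ∣ t.deg χ := by simp [Z]
theorem mem_Q {χ : ι} : χ ∈ t.Q ↔ (3 : ℤ) ∣ t.deg χ := by simp [Q]

theorem o_mem : t.o ∈ t.Z := by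
  rw [mem_Z, t.dego]; decide

theorem dsq_le (y : Y) {χ : ι} (hχ : χ ≠ t.o) : t.d y χ * t.d y χ ≤ 8 := by
  have h := t.dd y y
  rw [if_pos rfl] at h
  have h2 : t.d y χ * t.d y χ + t.d y t.o * t.d y t.o ≤ ∑ χ, t.d y χ * t.d y χ := by
    have := Finset.sum_le_sum_of_subset_of_nonneg (s := {χ, t.o}) (t := Finset.univ)
      (f := fun χ => t.d y χ * t.d y χ) (Finset.subset_univ _) (fun i _ _ => mul_self_nonneg _)
    rwa [Finset.sum_pair hχ] at this
  rw [h, t.do1] at h2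
  linarith

theorem d_abs (y : Y) (χ : ι) : t.d y χ = 0 ∨ t.d y χ = 1 ∨ t.d y χ = -1 ∨ t.d y χ = 2 ∨ t.d y χ = -2 := by
  by_cases hχ : χ = t.o
  · rw [hχ, t.do1]; simp
  · have h := t.dsq_le y hχ
    have h1 : t.d y χ ≤ 2 := by nlinarith
    have h2 : -2 ≤ t.d y χ := by nlinarith
    omega

theorem d_eq_zero (y : Y) {χ : ι} (h : χ ∈ t.Q) : t.d y χ = 0 := by
  rw [mem_Q] at h
  have h1 := t.dc y χ
  have h2 : (3 : ℤ) ∣ t.d y χ := by
    have := dvd_sub h h1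
    simpa using this
  rcases t.d_abs y χ with h3 | h3 | h3 | h3 | h3 <;> rw [h3] at h2 ⊢ <;> omega

theorem d_ne_zero (y : Y) {χ : ι} (h : χ ∈ t.Z) : t.d y χ ≠ 0 := by
  rw [mem_Z] at h
  have h1 := t.dc y χ
  intro h2
  rw [h2, sub_zero] at h1
  exact h h1

theorem Z_disj : Disjoint t.Z t.Q := by
  rw [Finset.disjoint_left]
  intro χ h1 h2
  exact (t.mem_Z.1 h1) (t.mem_Q.1 h2)

theorem Z_union : t.Z ∪ t.Q = Finset.univ := by
  ext χ
  simp only [Finset.mem_union, mem_Z, mem_Q, Finset.mem_univ, iff_true]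
  exact (em _).symm

theorem sum_split {M : Type*} [AddCommMonoid M] (f : ι → M) :
    ∑ χ, f χ = ∑ χ ∈ t.Z, f χ + ∑ χ ∈ t.Q, f χ := by
  rw [← Finset.sum_union t.Z_disj, t.Z_union]

theorem card_split : Fintype.card ι = t.Z.card + t.Q.card := by
  rw [← Finset.card_union_of_disjoint t.Z_disj, t.Z_union, Finset.card_univ]

/-- the number of entries `±2` -/
def n2 (y : Y) : ℕ := (t.Z.filter (fun χ => ¬ Odd (t.d y χ))).card

theorem card_Z (y : Y) : t.Z.card + 3 * t.n2 y = 9 := by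
  have h := t.dd y y
  rw [if_pos rfl, t.sum_split] at h
  have h2 : ∑ χ ∈ t.Q, t.d y χ * t.d y χ = 0 :=
    Finset.sum_eq_zero fun χ hχ => by rw [t.d_eq_zero y hχ]; ring
  have h3 : ∀ χ ∈ t.Z, t.d y χ * t.d y χ = 1 + 3 * (if ¬ Odd (t.d y χ) then 1 else 0) := by
    intro χ hχ
    have h4 := t.d_ne_zero y hχ
    rcases t.d_abs y χ with h5 | h5 | h5 | h5 | h5
    · exact absurd h5 h4
    · rw [h5]; decide
    · rw [h5]; decide
    · rw [h5]; decide
    · rw [h5]; decide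
  rw [h2, add_zero, Finset.sum_congr rfl h3, Finset.sum_add_distrib, ← Finset.mul_sum, Finset.sum_boole] at h
  simp only [Finset.sum_const, smul_eq_mul, nsmul_eq_mul, mul_one] at h
  unfold n2
  have : ((t.Z.card + 3 * (t.Z.filter (fun χ => ¬ Odd (t.d y χ))).card : ℕ) : ℤ) = 9 := by
    push_cast
    exact_mod_cast h
  exact_mod_cast this

theorem card_Z_ne_three (y : Y) : t.Z.card ≠ 3 := by
  intro h
  have h1 := t.card_Z y
  have h2 : t.n2 y = 2 := by omega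
  -- all entries but that of `o` are even
  have hev : ∀ χ, χ ≠ t.o → Even (t.d y χ) := by
    intro χ hχ
    by_contra hcon
    have hodd : Odd (t.d y χ) := Int.not_even_iff_odd.1 hcon
    have hχZ : χ ∈ t.Z := by
      by_contra h3
      have h4 : χ ∈ t.Q := by
        rw [mem_Q]; rw [mem_Z] at h3; exact not_not.1 h3
      rw [t.d_eq_zero y h4] at hodd
      exact absurd hodd (by decide)
    have h3 : (t.Z.filter (fun χ => Odd (t.d y χ))).card = 1 := by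
      have := Finset.card_filter_add_card_filter_not (s := t.Z) (fun χ => Odd (t.d y χ))
      unfold n2 at h2
      omega
    obtain ⟨w, hw⟩ := Finset.card_eq_one.1 h3
    have e1 : χ ∈ t.Z.filter (fun χ => Odd (t.d y χ)) := Finset.mem_filter.2 ⟨hχZ, hodd⟩
    have e2 : t.o ∈ t.Z.filter (fun χ => Odd (t.d y χ)) :=
      Finset.mem_filter.2 ⟨t.o_mem, by rw [t.do1]; decide⟩
    rw [hw, Finset.mem_singleton] at e1 e2
    exact hχ (e1.trans e2.symm)
  have h3 := t.deg0 y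
  rw [← Finset.add_sum_erase _ _ (Finset.mem_univ t.o), t.do1, t.dego] at h3
  have h4 : Even (∑ χ ∈ Finset.univ.erase t.o, t.d y χ * t.deg χ) := by
    apply Finset.even_sum
    intro χ hχ
    exact (hev χ (Finset.ne_of_mem_erase hχ)).mul_right _
  obtain ⟨c, hc⟩ := h4
  rw [hc] at h3
  omega

theorem card_Z_cases (y : Y) : t.Z.card = 6 ∨ t.Z.card = 9 := by
  have h1 := t.card_Z y
  have h2 := t.card_Z_ne_three y
  have h3 : 0 < t.Z.card := Finset.card_pos.2 ⟨t.o, t.o_mem⟩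
  omega

theorem odd_of_nine (y : Y) (h : t.Z.card = 9) {χ : ι} (hχ : χ ∈ t.Z) : Odd (t.d y χ) := by
  have h1 := t.card_Z y
  have h2 : t.n2 y = 0 := by omega
  unfold n2 at h2
  rw [Finset.card_eq_zero, Finset.filter_eq_empty_iff] at h2
  exact not_not.1 (h2 hχ)

theorem odd_sum_of_nine {f : ι → ℤ} (h : t.Z.card = 9) (hf : ∀ χ ∈ t.Z, Odd (f χ)) : Odd (∑ χ ∈ t.Z, f χ) := by
  have h1 : Even (∑ χ ∈ t.Z, (f χ - 1)) := by
    apply Finset.even_sum
    intro χ hχ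
    obtain ⟨c, hc⟩ := hf χ hχ
    exact ⟨c, by rw [hc]; ring⟩
  rw [Finset.sum_sub_distrib, Finset.sum_const, h] at h1
  obtain ⟨c, hc⟩ := h1
  refine ⟨c + 4, ?_⟩
  rw [nsmul_eq_mul] at hc
  push_cast at hc
  linarith

theorem card_Z_six_of_two {y y' : Y} (hy : y ≠ y') : t.Z.card = 6 := by
  rcases t.card_Z_cases y with h | h
  · exact h
  · exfalso
    have h1 := t.dd y y'
    rw [if_neg hy, t.sum_split] at h1
    have h2 : ∑ χ ∈ t.Q, t.d y χ * t.d y' χ = 0 :=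
      Finset.sum_eq_zero fun χ hχ => by rw [t.d_eq_zero y hχ]; ring
    rw [h2, add_zero] at h1
    have h3 := t.odd_sum_of_nine (f := fun χ => t.d y χ * t.d y' χ) h
      (fun χ hχ => (t.odd_of_nine y h hχ).mul (t.odd_of_nine y' h hχ))
    rw [h1] at h3
    exact absurd h3 (by decide)

/-! ### diagonal entries -/

/-- `N χ` -/
def N (χ : ι) : ℤ := ∑ y, t.d y χ * t.d y χ

theorem sum_N : ∑ χ, t.N χ = 9 * Fintype.card Y := by
  unfold N
  rw [Finset.sum_comm]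
  have : ∀ y : Y, ∑ χ, t.d y χ * t.d y χ = 9 := fun y => by rw [t.dd, if_pos rfl]
  rw [Finset.sum_congr rfl fun y _ => this y, Finset.sum_const, Finset.card_univ, nsmul_eq_mul]; ring

/-- the star integer -/
noncomputable def s (χ : ι) : ℤ := (t.s9 χ).choose

theorem α_diag (χ : ι) : t.α χ χ = ((9 - t.N χ - 3 * t.s χ : ℤ) : ℂ) ∧ t.a χ χ = 9 - t.N χ + 6 * t.s χ := by
  have h1 := t.h1 χ χ
  rw [if_pos rfl, t.αh] at h1
  have h2 : (t.a χ χ : ℂ) - t.α χ χ = 9 * (t.s χ : ℂ) := (t.s9 χ).choose_spec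
  have h3 : (t.N χ : ℂ) = ∑ y, (t.d y χ : ℂ) * t.d y χ := by unfold N; push_cast; rfl
  rw [← h3] at h1
  constructor
  · push_cast
    linear_combination (1 / 3 : ℂ) * h1 - (1 / 3 : ℂ) * h2
  · have h4 : (t.a χ χ : ℂ) = ((9 - t.N χ + 6 * t.s χ : ℤ) : ℂ) := by
      push_cast
      linear_combination (1 / 3 : ℂ) * h1 + (2 / 3 : ℂ) * h2
    exact_mod_cast h4

theorem N_Q {χ : ι} (h : χ ∈ t.Q) : t.N χ = 0 := by
  unfold N
  exact Finset.sum_eq_zero fun y _ => by rw [t.d_eq_zero y h]; ring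

theorem s_Q {χ : ι} (h : χ ∈ t.Q) : t.s χ = 0 := by
  obtain ⟨-, h1⟩ := t.α_diag χ
  rw [t.N_Q h] at h1
  have h2 := t.a9 χ χ (t.mem_Q.1 h) (t.mem_Q.1 h)
  have h3 := t.apos χ
  have h4 := t.alt χ
  omega

theorem α_Q {χ : ι} (h : χ ∈ t.Q) : t.α χ χ = 9 := by
  obtain ⟨h1, -⟩ := t.α_diag χ
  rw [h1, t.N_Q h, t.s_Q h]; norm_num

theorem a_Q {χ : ι} (h : χ ∈ t.Q) : t.a χ χ = 9 := by
  obtain ⟨-, h1⟩ := t.α_diag χ
  rw [h1, t.N_Q h, t.s_Q h]; norm_num

/-- the trace identity -/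
theorem trace_id : (t.Q.card : ℝ) = 3 * t.l - t.Z.card + Fintype.card Y + (∑ χ ∈ t.Z, t.s χ : ℤ) / 3 := by
  have h1 := t.αtr
  have h2 : ∑ χ, t.α χ χ = ((9 * (Fintype.card ι : ℤ) - 9 * Fintype.card Y - 3 * ∑ χ ∈ t.Z, t.s χ : ℤ) : ℂ) := by
    rw [Finset.sum_congr rfl fun χ _ => (t.α_diag χ).1, ← Int.cast_sum]
    congr 1
    rw [Finset.sum_sub_distrib, Finset.sum_sub_distrib, ← Finset.mul_sum, t.sum_N, t.sum_split t.s,
      Finset.sum_eq_zero (s := t.Q) fun χ hχ => t.s_Q hχ, Finset.sum_const, Finset.card_univ, nsmul_eq_mul]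
    ring
  rw [h2] at h1
  have h3 : ((9 * (Fintype.card ι : ℤ) - 9 * Fintype.card Y - 3 * ∑ χ ∈ t.Z, t.s χ : ℤ) : ℝ) = 27 * t.l := by
    exact_mod_cast h1
  have h4 := t.card_split
  rw [h4] at h3
  push_cast at h3 ⊢
  linarith

/-! ### rows -/

theorem row (ψ : ι) (c : ℝ) (hc : t.α ψ ψ = (c : ℂ)) : ∑ χ, Complex.normSq (t.α χ ψ) = 27 * c := by
  have h1 := t.αid ψ ψ
  have h2 : ∀ χ, t.α ψ χ * t.α χ ψ = (Complex.normSq (t.α χ ψ) : ℂ) := by
    intro χ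
    rw [← t.αh χ ψ, mul_comm, Complex.mul_conj]
  rw [Finset.sum_congr rfl fun χ _ => h2 χ, hc] at h1
  exact_mod_cast h1

/-- each member of `Q` is non-orthogonal to at most one other member -/
theorem adj_unique {ψ χ χ' : ι} (hψ : ψ ∈ t.Q) (hχ : χ ∈ t.Q) (hχ' : χ' ∈ t.Q) (h1 : χ ≠ ψ) (h2 : χ' ≠ ψ)
    (h3 : t.α χ ψ ≠ 0) (h4 : t.α χ' ψ ≠ 0) : χ = χ' := by
  by_contra hne
  have hrow := t.row ψ 9 (by rw [t.α_Q hψ]; norm_num)
  have hno : ∀ χ ∈ t.Q, t.α χ ψ ≠ 0 → 81 ≤ Complex.normSq (t.α χ ψ) := by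
    intro χ hχ h
    have e1 := one_le_normSq (t.α9 χ ψ (t.mem_Q.1 hχ) (t.mem_Q.1 hψ)) (by
      intro h5; apply h; field_simp at h5; simpa using h5)
    rw [Complex.normSq_div] at e1
    have e2 : Complex.normSq (9 : ℂ) = 81 := by
      rw [Complex.normSq_apply]; norm_num
    rw [e2] at e1
    linarith [(le_div_iff₀ (by norm_num : (0 : ℝ) < 81)).1 e1]
  have hoQ : t.o ∉ t.Q := fun h => (t.mem_Z.1 t.o_mem) (t.mem_Q.1 h)
  have ho : 0 < Complex.normSq (t.α t.o ψ) :=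
    Complex.normSq_pos.2 (t.α1 _ _ (t.mem_Z.1 t.o_mem))
  have hψψ : t.α ψ ψ ≠ 0 := by rw [t.α_Q hψ]; norm_num
  have hsub : ∑ θ ∈ ({ψ, χ, χ', t.o} : Finset ι), Complex.normSq (t.α θ ψ) ≤ ∑ θ, Complex.normSq (t.α θ ψ) :=
    Finset.sum_le_sum_of_subset_of_nonneg (Finset.subset_univ _) fun _ _ _ => Complex.normSq_nonneg _
  rw [Finset.sum_insert, Finset.sum_insert, Finset.sum_insert, Finset.sum_singleton, hrow] at hsub
  · have e1 := hno ψ hψ hψψ
    have e2 := hno χ hχ h3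
    have e3 := hno χ' hχ' h4
    linarith
  · rw [Finset.mem_singleton]; rintro rfl; exact hoQ hχ'
  · rw [Finset.mem_insert, Finset.mem_singleton]; rintro (h5 | h5)
    · exact hne h5
    · exact hoQ (h5 ▸ hχ)
  · rw [Finset.mem_insert, Finset.mem_insert, Finset.mem_singleton]; rintro (h5 | h5 | h5)
    · exact h1 h5.symm
    · exact h2 h5.symm
    · exact hoQ (h5 ▸ hψ)

theorem α_symm_ne {χ ψ : ι} (h : t.α χ ψ ≠ 0) : t.α ψ χ ≠ 0 := by
  rw [← t.αh]
  simpa using h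

/-- Bessel's inequality -/
theorem bessel (T : Finset ι) (hT : T ⊆ t.Q) (horth : ∀ χ ∈ T, ∀ ψ ∈ T, χ ≠ ψ → t.α χ ψ = 0) :
    (T.card : ℝ) ≤ t.l := by
  classical
  set A : Matrix ι ι ℂ := Matrix.of t.α with hA
  set E : Matrix ι ι ℂ := Matrix.diagonal (fun χ => if χ ∈ T then 1 else 0) with hE
  have hAA : A * A = (27 : ℂ) • A := by
    ext χ θ
    rw [Matrix.mul_apply, Matrix.smul_apply, smul_eq_mul]
    exact t.αid χ θ
  have hEAE : E * A * E = (9 : ℂ) • E := by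
    ext χ θ
    rw [hE, Matrix.mul_diagonal, Matrix.diagonal_mul, Matrix.smul_apply, Matrix.diagonal_apply, smul_eq_mul]
    by_cases hχ : χ ∈ T
    · by_cases hθ : θ ∈ T
      · by_cases h : χ = θ
        · subst h
          rw [if_pos hχ, if_pos rfl, hA, Matrix.of_apply, t.α_Q (hT hχ)]; ring
        · rw [if_pos hχ, if_pos hθ, if_neg h, hA, Matrix.of_apply, horth χ hχ θ hθ h]; ring
      · have h : χ ≠ θ := by rintro rfl; exact hθ hχ
        rw [if_neg hθ, if_neg h]; ring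
    · by_cases h : χ = θ
      · subst h
        rw [if_neg hχ, if_pos rfl]; ring
      · rw [if_neg hχ, if_neg h]; ring
  have hAh : A.conjTranspose = A := by
    ext χ θ
    rw [Matrix.conjTranspose_apply]
    exact t.αh θ χ
  have hEh : E.conjTranspose = E := by
    rw [hE, Matrix.diagonal_conjTranspose]
    congr 1
    funext χ
    simp only [Pi.star_apply]
    split_ifs <;> simp
  set D : Matrix ι ι ℂ := (1 / 27 : ℂ) • A - (1 / 243 : ℂ) • (A * E * A) with hD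
  have hDh : D.conjTranspose = D := by
    rw [hD, Matrix.conjTranspose_sub, Matrix.conjTranspose_smul, Matrix.conjTranspose_smul,
      Matrix.conjTranspose_mul, Matrix.conjTranspose_mul, hAh, hEh, ← Matrix.mul_assoc]
    congr 1
    · congr 1; norm_num
    · congr 1; norm_num
  have hDD : D * D = D := by
    have e1 : A * (A * E * A) = (27 : ℂ) • (A * E * A) := by
      rw [← Matrix.mul_assoc, ← Matrix.mul_assoc, hAA, Matrix.smul_mul, Matrix.smul_mul]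
    have e2 : (A * E * A) * A = (27 : ℂ) • (A * E * A) := by
      rw [Matrix.mul_assoc (A * E), hAA, Matrix.mul_smul]
    have e3 : (A * E * A) * (A * E * A) = (243 : ℂ) • (A * E * A) := by
      calc (A * E * A) * (A * E * A) = ((A * E * A) * A) * E * A := by simp only [Matrix.mul_assoc]
        _ = (27 : ℂ) • (A * (E * A * E) * A) := by
            rw [e2, Matrix.smul_mul, Matrix.smul_mul]; simp only [Matrix.mul_assoc]
        _ = (243 : ℂ) • (A * E * A) := by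
            rw [hEAE, Matrix.mul_smul, Matrix.smul_mul, smul_smul]; norm_num
    rw [hD, Matrix.sub_mul, Matrix.mul_sub, Matrix.mul_sub, Matrix.smul_mul, Matrix.smul_mul, Matrix.mul_smul,
      Matrix.mul_smul, Matrix.smul_mul, Matrix.mul_smul, Matrix.smul_mul, Matrix.mul_smul, hAA, e1, e2, e3]
    module
  have htr : D.trace = (t.l : ℂ) - T.card := by
    have e1 : (A * E * A).trace = (243 : ℂ) * T.card := by
      rw [Matrix.trace_mul_comm, ← Matrix.mul_assoc, hAA, Matrix.smul_mul, Matrix.trace_smul]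
      have e2 : (A * E).trace = 9 * (T.card : ℂ) := by
        rw [Matrix.trace]
        have e3 : ∀ χ, (A * E).diag χ = if χ ∈ T then 9 else 0 := by
          intro χ
          rw [Matrix.diag_apply, hE, Matrix.mul_diagonal, hA, Matrix.of_apply]
          split_ifs with h
          · rw [t.α_Q (hT h)]; ring
          · ring
        rw [Finset.sum_congr rfl fun χ _ => e3 χ, ← Finset.sum_filter, Finset.filter_mem_eq_inter,
          Finset.univ_inter, Finset.sum_const, nsmul_eq_mul]; ring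
      rw [e2, smul_eq_mul]; ring
    have e4 : A.trace = 27 * (t.l : ℂ) := t.αtr
    rw [hD, Matrix.trace_sub, Matrix.trace_smul, Matrix.trace_smul, e1, e4, smul_eq_mul, smul_eq_mul]
    ring
  have hpos : D.trace = ((∑ χ, ∑ θ, Complex.normSq (D θ χ) : ℝ) : ℂ) := by
    rw [← hDD]
    nth_rewrite 1 [← hDh]
    rw [Matrix.trace]
    push_cast
    refine Finset.sum_congr rfl fun χ _ => ?_
    rw [Matrix.diag_apply, Matrix.mul_apply]
    refine Finset.sum_congr rfl fun θ _ => ?_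
    rw [Matrix.conjTranspose_apply, ← Complex.mul_conj, hDD, mul_comm]
    rfl
  rw [htr] at hpos
  have h5 : t.l - T.card = ∑ χ, ∑ θ, Complex.normSq (D θ χ) := by exact_mod_cast hpos
  have h6 : 0 ≤ ∑ χ, ∑ θ, Complex.normSq (D θ χ) :=
    Finset.sum_nonneg fun _ _ => Finset.sum_nonneg fun _ _ => Complex.normSq_nonneg _
  linarith

/-- `k₊ ≤ 2 l'` -/
theorem card_Q_le : (t.Q.card : ℝ) ≤ 2 * t.l := by
  classical
  -- a maximal orthogonal subset
  set S : Finset (Finset ι) := t.Q.powerset.filter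
    (fun T => ∀ χ ∈ T, ∀ ψ ∈ T, χ ≠ ψ → t.α χ ψ = 0) with hS
  have hSne : S.Nonempty := ⟨∅, by simp [hS]⟩
  obtain ⟨T, hTS, hTmax⟩ := Finset.exists_max_image S Finset.card hSne
  rw [hS, Finset.mem_filter, Finset.mem_powerset] at hTS
  obtain ⟨hTQ, hTo⟩ := hTS
  have hadj : ∀ χ ∈ t.Q \ T, ∃ ψ ∈ T, t.α χ ψ ≠ 0 := by
    intro χ hχ
    rw [Finset.mem_sdiff] at hχ
    by_contra hcon
    push Not at hcon
    have h1 : insert χ T ∈ S := by
      rw [hS, Finset.mem_filter, Finset.mem_powerset]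
      refine ⟨Finset.insert_subset hχ.1 hTQ, ?_⟩
      intro θ hθ ψ hψ hne
      rcases Finset.mem_insert.1 hθ with h3 | h3
      · rcases Finset.mem_insert.1 hψ with h4 | h4
        · exact absurd (h3.trans h4.symm) hne
        · rw [h3]; exact hcon ψ h4
      · rcases Finset.mem_insert.1 hψ with h4 | h4
        · by_contra h2
          rw [h4] at h2
          exact t.α_symm_ne h2 (hcon θ h3)
        · exact hTo θ h3 ψ h4 hne
    have h2 := hTmax _ h1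
    rw [Finset.card_insert_of_notMem hχ.2] at h2
    omega
  choose! g hg hg2 using hadj
  have hinj : (t.Q \ T).card ≤ T.card := by
    apply Finset.card_le_card_of_injOn g (fun χ hχ => hg χ hχ)
    intro χ hχ χ' hχ' heq
    have e1 := Finset.mem_sdiff.1 hχ
    have e2 := Finset.mem_sdiff.1 hχ'
    refine t.adj_unique (hTQ (hg χ hχ)) e1.1 e2.1 ?_ ?_ (hg2 χ hχ) (by rw [heq]; exact hg2 χ' hχ')
    · rintro h3; exact e1.2 (by rw [h3]; exact hg χ hχ)
    · rintro h3; exact e2.2 (by rw [h3]; exact hg χ hχ)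
  have h1 := t.bessel T hTQ hTo
  have h2 : t.Q.card = (t.Q \ T).card + T.card := by
    rw [Finset.card_sdiff_add_card_eq_card hTQ]
  have h3 : t.Q.card ≤ 2 * T.card := by omega
  have h4 : (t.Q.card : ℝ) ≤ 2 * T.card := by exact_mod_cast h3
  linarith

end Tab

end Cfsg.Agent.Lib.H16XT
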