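import Cfsg.Agent.Lib.H16XK

/-!
# The local group and the comparison (helper16)
-/

set_option autoImplicit false
set_option linter.all false

namespace Cfsg.Agent.Lib.H16XI

open Cfsg Cfsg.Agent.Lib Cfsg.Agent.Lib.BlockRing Cfsg.Agent.Lib.BlockGA Cfsg.Agent.Lib.BlockIdem
open Cfsg.Agent.Lib.BlockPair Cfsg.Agent.Lib.Contrib Cfsg.Agent.Lib.BlockSection
open Cfsg.Agent.Lib.CharBasic Cfsg.Agent.Lib.H16XE Cfsg.Agent.Lib.H16XG Cfsg.Agent.Lib.PPart
open Cfsg.Agent.Lib.Subsec (Cz mem_Cz fs mem_fs sum_fs al al_eq)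
open Cfsg.Agent.Lib.H16XA (XD XS zL XL mem_XL mem_zpL)
open Cfsg.Agent.Lib.BlockDefect Cfsg.Agent.Lib.BlockDeg Cfsg.Agent.Lib.H16XT
open scoped ComplexConjugate Classical

universe u

variable {M : Ideal AlgInt} {G : Type u} [Group G] [Finite G]
variable {P : Sylow 3 G} {z : G} {X : Finset G}

theorem root_conj {ε : ℂ} (h : ε ^ 3 = 1) : ε * conj ε = 1 := by
  have h1 : ‖ε‖ = 1 := Complex.norm_eq_one_of_pow_eq_one h (by norm_num)
  rw [Complex.mul_conj, Complex.normSq_eq_norm_sq, h1]; norm_num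

theorem cn_central_diag {z : G} (hzc : ∀ g, z * g = g * z) (hz3 : z ^ 3 = 1) (χ : IrrCharacter G) :
    cn 3 z (χ : G → ℂ) (χ : G → ℂ) = cn 3 1 (χ : G → ℂ) (χ : G → ℂ) := by
  have := Fintype.ofFinite G
  obtain ⟨ε, hε3, hε⟩ := irr_central hzc χ hz3
  have h1 := root_conj hε3
  unfold cn
  rw [card_Cz_central hzc, card_Cz_central (u := (1 : G)) (fun g => by simp), J_central hzc,
    J_central (u := (1 : G)) (fun g => by simp)]
  congr 1
  refine Finset.sum_congr rfl fun s _ => ?_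
  split_ifs
  · rfl
  · rw [hε, one_mul, map_mul]
    linear_combination ((χ : G → ℂ) s * conj ((χ : G → ℂ) s)) * h1

section
variable (h : XS P z X) (hM : IsPModular 3 M)
include h hM

theorem eps_sum (hzc : ∀ g, z * g = g * z) (ε : IrrCharacter G → ℂ)
    (hε : ∀ χ : IrrCharacter G, ∀ g, (χ : G → ℂ) (z * g) = ε χ * (χ : G → ℂ) g) :
    ∑ χ ∈ fs (principalBlock M G), ε χ * cn 3 1 (χ : G → ℂ) (χ : G → ℂ) = 0 := by
  have := Fintype.ofFinite G
  have hB : IsPBlock M (principalBlock M G) := BlockThird.isPBlock_principal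
  have h1 : ∀ χ : IrrCharacter G, ε χ * cn 3 1 (χ : G → ℂ) (χ : G → ℂ) =
      (Nat.card G : ℂ)⁻¹ * ∑ s : G, if 3 ∣ orderOf s then 0 else (χ : G → ℂ) (z * s) * conj ((χ : G → ℂ) s) := by
    intro χ
    unfold cn
    rw [card_Cz_central (u := (1 : G)) (fun g => by simp), J_central (u := (1 : G)) (fun g => by simp), mul_left_comm]
    congr 1
    rw [Finset.mul_sum]
    refine Finset.sum_congr rfl fun s _ => ?_
    split_ifs
    · rw [mul_zero]
    · rw [hε, one_mul]; ring
  rw [Finset.sum_congr rfl fun χ _ => h1 χ, ← Finset.mul_sum, Finset.sum_comm, Finset.sum_eq_zero, mul_zero]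
  intro s _
  split_ifs with hs
  · simp
  · have h2 := BlockOrth.block_orthogonality hM hB (g := z * s) (h := s) (u := z) (v := 1)
      ⟨s, rfl, hzc s, pe_of_P h.toXD.zP, hs⟩ ⟨s, one_mul s, Commute.one_left s, ⟨0, by simp⟩, hs⟩
      (fun h3 => h.toXD.z1 (isConj_one_left.1 h3))
    rw [finsum_mem_eq_finite_toFinset_sum _ (Set.toFinite _)] at h2
    rw [← h2]
    refine Finset.sum_congr rfl fun χ _ => ?_
    rw [χ.2.inv]

/-- the local table -/
theorem local_table (hzc : ∀ g, z * g = g * z) (y : X) (t : Tab (principalBlock M G) X)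
    (ha : ∀ χ ψ, (t.a χ ψ : ℂ) = 27 * cn 3 1 ((χ : IrrCharacter G) : G → ℂ) ((ψ : IrrCharacter G) : G → ℂ))
    (hα : ∀ χ ψ, t.α χ ψ = 27 * cn 3 z ((χ : IrrCharacter G) : G → ℂ) ((ψ : IrrCharacter G) : G → ℂ))
    (hdv : ∀ y χ, (t.d y χ : ℂ) = ((χ : IrrCharacter G) : G → ℂ) (y : G)) :
    t.l = 6 - Fintype.card X ∧ (t.a t.o t.o : ℂ) = 9 - Fintype.card X := by
  have hd := h.toXD
  have haα : ∀ χ, (t.a χ χ : ℂ) = t.α χ χ := fun χ => by rw [ha, hα, cn_central_diag hzc hd.z3]
  have hε : ∀ χ : IrrCharacter G, ∃ ε : ℂ, ε ^ 3 = 1 ∧ ∀ g, (χ : G → ℂ) (z * g) = ε * (χ : G → ℂ) g :=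
    fun χ => irr_central hzc χ hd.z3
  choose ε hε3 hεg using hε
  have hsum := eps_sum h hM hzc ε hεg
  have hsum2 : ∑ χ : principalBlock M G, ε χ * (t.a χ χ : ℂ) = 0 := by
    have h1 : ∑ χ : principalBlock M G, ε χ * (t.a χ χ : ℂ) = 27 * ∑ χ : principalBlock M G,
        ε χ * cn 3 1 ((χ : IrrCharacter G) : G → ℂ) ((χ : IrrCharacter G) : G → ℂ) := by
      rw [Finset.mul_sum]
      exact Finset.sum_congr rfl fun χ _ => by rw [ha]; ring
    rw [h1, ← sum_fs (principalBlock M G) (fun χ => ε χ * cn 3 1 (χ : G → ℂ) (χ : G → ℂ)), hsum, mul_zero]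
  -- the constituents
  have hcase := fun χ : principalBlock M G => cube_root (hε3 χ)
  have hom1 := om_ne_one
  have hom2 : om ^ 2 ≠ 1 := by
    intro h1
    apply om_ne_one
    have h2 := om_cube
    rw [pow_succ, h1, one_mul] at h2; exact h2
  have hom3 : om ^ 2 ≠ om := by
    intro h1
    have h2 := om_cube
    rw [pow_succ, h1, ← sq, h1] at h2
    exact om_ne_one h2
  set S0 := Finset.univ.filter (fun χ : principalBlock M G => ε χ = 1) with hS0
  set S1 := Finset.univ.filter (fun χ : principalBlock M G => ε χ = om) with hS1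
  set S2 := Finset.univ.filter (fun χ : principalBlock M G => ε χ = om ^ 2) with hS2
  have hpart : ∀ {A : Type} [AddCommMonoid A] (f : principalBlock M G → A),
      ∑ χ, f χ = ∑ χ ∈ S0, f χ + (∑ χ ∈ S1, f χ + ∑ χ ∈ S2, f χ) := by
    intro A _ f
    rw [← Finset.sum_filter_add_sum_filter_not Finset.univ (fun χ : principalBlock M G => ε χ = 1)]
    congr 1
    rw [← Finset.sum_filter_add_sum_filter_not (Finset.univ.filter (fun χ : principalBlock M G => ¬ ε χ = 1))
      (fun χ : principalBlock M G => ε χ = om), Finset.filter_filter, Finset.filter_filter]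
    congr 1
    · apply Finset.sum_congr _ fun _ _ => rfl
      ext χ
      simp only [Finset.mem_filter, Finset.mem_univ, true_and, hS1]
      exact ⟨fun h1 => h1.2, fun h1 => ⟨fun h2 => hom1 (h1.symm.trans h2), h1⟩⟩
    · apply Finset.sum_congr _ fun _ _ => rfl
      ext χ
      simp only [Finset.mem_filter, Finset.mem_univ, true_and, hS2]
      constructor
      · rintro ⟨h1, h2⟩
        rcases hcase χ with h3 | h3 | h3
        · exact absurd h3 h1
        · exact absurd h3 h2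
        · exact h3
      · intro h1
        exact ⟨fun h2 => hom2 (h1.symm.trans h2), fun h2 => hom3 (h1.symm.trans h2)⟩
  have hA : ∀ χ ∈ S1 ∪ S2, χ ∈ t.Q := by
    intro χ hχ
    have hne : ε χ ≠ 1 := by
      intro h1
      rcases Finset.mem_union.1 hχ with h2 | h2
      · exact hom1 ((Finset.mem_filter.1 h2).2.symm.trans h1)
      · exact hom2 ((Finset.mem_filter.1 h2).2.symm.trans h1)
    rw [t.mem_Q]
    obtain ⟨hyP, hyz⟩ := h.sub y y.2
    have h1 : ((χ : IrrCharacter G) : G → ℂ) (y : G) = 0 := by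
      obtain ⟨q, hq, hqy⟩ := hd.conj_mul hyP hyz (Subgroup.mem_zpowers z)
      have e1 : ((χ : IrrCharacter G) : G → ℂ) (q * y * q⁻¹) = ((χ : IrrCharacter G) : G → ℂ) y :=
        (χ : IrrCharacter G).2.isClassFunction _ _
      rw [hqy, ← hzc, hεg] at e1
      have e2 : (ε χ - 1) * ((χ : IrrCharacter G) : G → ℂ) (y : G) = 0 := by linear_combination e1
      rcases mul_eq_zero.1 e2 with h3 | h3
      · exact absurd (by linear_combination h3) hne
      · exact h3
    have h2 : t.d y χ = 0 := by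
      have := hdv y χ
      rw [h1] at this
      exact_mod_cast this
    have h3 := t.dc y χ
    rwa [h2, sub_zero] at h3
  have hA1 : ∑ χ ∈ S1, (t.a χ χ : ℤ) = 9 * S1.card := by
    rw [Finset.sum_congr rfl fun χ hχ => t.a_Q (hA χ (Finset.mem_union_left _ hχ)), Finset.sum_const, nsmul_eq_mul]
    ring
  have hA2 : ∑ χ ∈ S2, (t.a χ χ : ℤ) = 9 * S2.card := by
    rw [Finset.sum_congr rfl fun χ hχ => t.a_Q (hA χ (Finset.mem_union_right _ hχ)), Finset.sum_const, nsmul_eq_mul]
    ring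
  set A0 := ∑ χ ∈ S0, (t.a χ χ : ℤ) with hA0
  have hkey : (A0 : ℂ) + (om * (9 * S1.card) + om ^ 2 * (9 * S2.card)) = 0 := by
    rw [← hsum2, hpart]
    congr 1
    · rw [hA0]; push_cast
      refine Finset.sum_congr rfl fun χ hχ => ?_
      rw [(Finset.mem_filter.1 hχ).2, one_mul]
    · congr 1
      · rw [Finset.sum_congr rfl fun χ hχ => by rw [(Finset.mem_filter.1 hχ).2], ← Finset.mul_sum]
        congr 1
        exact_mod_cast hA1.symm
      · rw [Finset.sum_congr rfl fun χ hχ => by rw [(Finset.mem_filter.1 hχ).2], ← Finset.mul_sum]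
        congr 1
        exact_mod_cast hA2.symm
  have hkey2 : (((A0 - 9 * S2.card : ℤ) : ℝ) : ℂ) + (((9 * S1.card - 9 * S2.card : ℤ) : ℝ) : ℂ) * om = 0 := by
    push_cast
    linear_combination hkey - (9 * (S2.card : ℂ)) * om_sq
  have him := congrArg Complex.im hkey2
  have hre := congrArg Complex.re hkey2
  rw [Complex.add_im, Complex.mul_im, Complex.ofReal_im, Complex.ofReal_im, Complex.ofReal_re, om_im, om_re,
    Complex.zero_im, zero_mul, add_zero, zero_add] at him
  rw [Complex.add_re, Complex.mul_re, Complex.ofReal_re, Complex.ofReal_im, Complex.ofReal_re, om_im, om_re,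
    Complex.zero_re, zero_mul, sub_zero] at hre
  have hs3 : (0 : ℝ) < Real.sqrt 3 := Real.sqrt_pos.2 (by norm_num)
  have h12 : ((9 * S1.card - 9 * S2.card : ℤ) : ℝ) = 0 := by
    rcases mul_eq_zero.1 him with h1 | h1
    · exact h1
    · linarith
  have h02 : ((A0 - 9 * S2.card : ℤ) : ℝ) = 0 := by
    rw [h12, zero_mul, add_zero] at hre; exact hre
  have h12' : (S1.card : ℤ) = S2.card := by
    have : (9 * S1.card - 9 * S2.card : ℤ) = 0 := by exact_mod_cast h12
    linarith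
  have h02' : A0 = 9 * S2.card := by
    have : (A0 - 9 * S2.card : ℤ) = 0 := by exact_mod_cast h02
    linarith
  have htr : ∑ χ : principalBlock M G, (t.a χ χ : ℤ) = 27 * S2.card := by
    rw [hpart, hA1, hA2, ← hA0, h02', h12']; ring
  have hl : t.l = S2.card := by
    have h1 := t.αtr
    rw [Finset.sum_congr rfl fun χ _ => (haα χ).symm, ← Int.cast_sum, htr] at h1
    have h2 : (27 : ℂ) * (S2.card : ℂ) = 27 * (t.l : ℂ) := by rw [← h1]; push_cast; ring
    have h3 : ((S2.card : ℝ) : ℂ) = (t.l : ℂ) := by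
      have := mul_left_cancel₀ (by norm_num : (27 : ℂ) ≠ 0) h2
      exact_mod_cast this
    exact (Complex.ofReal_injective h3).symm
  have hlow : 2 * t.l ≤ t.Q.card := by
    rw [hl]
    have hdis : Disjoint S1 S2 := by
      rw [Finset.disjoint_left]
      intro χ h1 h2
      exact hom3 ((Finset.mem_filter.1 h2).2.symm.trans (Finset.mem_filter.1 h1).2)
    have h1 : (S1 ∪ S2).card ≤ t.Q.card := Finset.card_le_card hA
    rw [Finset.card_union_of_disjoint hdis] at h1
    have h2 : 2 * S2.card ≤ t.Q.card := by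
      have : S1.card = S2.card := by exact_mod_cast h12'
      omega
    exact_mod_cast h2
  have hlpos : 0 < t.l := by
    have h1 : 0 < ∑ χ : principalBlock M G, (t.a χ χ : ℤ) :=
      Finset.sum_pos (fun χ _ => t.apos χ) ⟨t.o, Finset.mem_univ _⟩
    rw [htr] at h1
    rw [hl]
    have : 0 < S2.card := by omega
    exact_mod_cast this
  obtain ⟨h1, h2⟩ := t.local_final y (fun χ _ => haα χ) hlow hlpos
  refine ⟨h1, ?_⟩
  have h3 := t.h1 t.o t.o
  rw [if_pos rfl, t.αh, ← haα] at h3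
  rw [Finset.sum_congr rfl fun y _ => by rw [t.do1 y], Finset.sum_const, Finset.card_univ, nsmul_eq_mul] at h3
  push_cast at h3
  linear_combination (1 / 3 : ℂ) * h3

end

section
variable (h : XS P z X) (hM : IsPModular 3 M)
include h hM

theorem local_result (hzc : ∀ g, z * g = g * z) (hne : X.Nonempty) :
    (∑ χ ∈ fs (principalBlock M G), cn 3 1 (χ : G → ℂ) (χ : G → ℂ) = 6 - X.card) ∧
    27 * cn 3 1 (tr1 G : G → ℂ) (tr1 G : G → ℂ) = 9 - X.card := by
  obtain ⟨t, ha, hα, hd, hdeg, ho⟩ := exists_tab h hM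
  obtain ⟨y, hy⟩ := hne
  obtain ⟨h1, h2⟩ := local_table h hM hzc ⟨y, hy⟩ t ha hα hd
  rw [Fintype.card_coe] at h1 h2
  constructor
  · have h3 := t.αtr
    rw [Finset.sum_congr rfl fun χ _ => hα χ χ, ← Finset.mul_sum,
      ← sum_fs (principalBlock M G) (fun χ => cn 3 z (χ : G → ℂ) (χ : G → ℂ)),
      Finset.sum_congr rfl fun χ _ => cn_central_diag hzc h.toXD.z3 χ] at h3
    have h4 := mul_left_cancel₀ (by norm_num : (27 : ℂ) ≠ 0) h3
    rw [h4, h1]; push_cast; ring
  · rw [← h2, ha, ho]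

/-- the trace of the central section in the group and in the centralizer -/
theorem trace_eq : ∑ χ ∈ fs (principalBlock M G), cn 3 z (χ : G → ℂ) (χ : G → ℂ) =
    ∑ θ ∈ fs (principalBlock M (Cz z)), cn 3 (1 : Cz z) (θ : Cz z → ℂ) (θ : Cz z → ℂ) := by
  haveI : Fact (Nat.Prime 3) := ⟨Nat.prime_three⟩
  have := Fintype.ofFinite G
  have := Fintype.ofFinite (Cz z)
  obtain ⟨k, hk⟩ := pe_of_P h.toXD.zP
  have h1 : ∀ χ : IrrCharacter G, cn 3 z (χ : G → ℂ) (χ : G → ℂ) = (Nat.card (Cz z) : ℂ)⁻¹ *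
      ∑ s : Cz z, if 3 ∣ orderOf s then 0 else (χ : G → ℂ) (z * (s : G)) * conj ((χ : G → ℂ) (z * (s : G))) := by
    intro χ
    unfold cn
    rw [J_eq]
  have h2 : ∀ θ : IrrCharacter (Cz z), cn 3 (1 : Cz z) (θ : Cz z → ℂ) (θ : Cz z → ℂ) = (Nat.card (Cz z) : ℂ)⁻¹ *
      ∑ s : Cz z, if 3 ∣ orderOf s then 0 else (θ : Cz z → ℂ) s * conj ((θ : Cz z → ℂ) s) := by
    intro θ
    unfold cn
    rw [card_Cz_central (u := (1 : Cz z)) (fun g => by simp), J_central (u := (1 : Cz z)) (fun g => by simp)]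
    congr 1
    refine Finset.sum_congr rfl fun s _ => ?_
    rw [one_mul]
  rw [Finset.sum_congr rfl fun χ _ => h1 χ, Finset.sum_congr rfl fun θ _ => h2 θ, ← Finset.mul_sum, ← Finset.mul_sum]
  congr 1
  rw [Finset.sum_comm, Finset.sum_comm (s := fs (principalBlock M (Cz z)))]
  refine Finset.sum_congr rfl fun s _ => ?_
  split_ifs with hs
  · simp
  · have h3 := principal_section_sum hM hk (H := Cz z) (fun g => mem_Cz) hs hs
    rw [finsum_mem_eq_finite_toFinset_sum _ (Set.toFinite _), finsum_mem_eq_finite_toFinset_sum _ (Set.toFinite _)] at h3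
    exact h3

theorem global_table (y : X) (hm : X.card = 1 ∨ X.card = 2 ∨ X.card = 4) (t : Tab (principalBlock M G) X)
    (hα : ∀ χ ψ, t.α χ ψ = 27 * cn 3 z ((χ : IrrCharacter G) : G → ℂ) ((ψ : IrrCharacter G) : G → ℂ))
    (ho : (t.o : IrrCharacter G) = tr1 G) :
    t.Z.card = 6 ∧ t.Q.card = 2 * (6 - X.card) ∧ t.l = 6 - X.card := by
  haveI : Fact (Nat.Prime 3) := ⟨Nat.prime_three⟩
  have hzc : ∀ g : H16XA.Cn z, zL z * g = g * zL z := fun g =>
    Subtype.ext (Subgroup.mem_centralizer_singleton_iff.1 g.2).symm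
  have hyL : (⟨y, h.toXD.le_Cn (h.sub y y.2).1⟩ : H16XA.Cn z) ∈ XL z X := mem_XL.2 y.2
  obtain ⟨hl', hoo'⟩ := local_result h.cent hM hzc ⟨_, hyL⟩
  have hcX : (XL z X).card = X.card := h.card_XL
  have hcX' : Fintype.card X = X.card := Fintype.card_coe X
  rw [hcX] at hl' hoo'
  have hl : t.l = 6 - X.card := by
    have h1 := t.αtr
    have h3 := trace_eq h hM
    rw [Finset.sum_congr rfl fun χ _ => hα χ χ, ← Finset.mul_sum,
      ← sum_fs (principalBlock M G) (fun χ => cn 3 z (χ : G → ℂ) (χ : G → ℂ)), h3] at h1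
    have h4 := mul_left_cancel₀ (by norm_num : (27 : ℂ) ≠ 0) h1
    have h5 : ((t.l : ℝ) : ℂ) = ((6 - X.card : ℝ) : ℂ) := by
      rw [← h4]; push_cast; exact hl'
    exact Complex.ofReal_injective h5
  have hoo : t.α t.o t.o = 9 - X.card := by
    rw [← hoo', hα, ho]
    congr 1
    have := Fintype.ofFinite (Cz z)
    unfold cn
    rw [card_Cz_central (u := (1 : Cz z)) (fun g => by simp), J_central (u := (1 : Cz z)) (fun g => by simp), J_eq]
    rfl
  obtain ⟨h5, h6⟩ := t.global_final y (by rw [hcX']; exact hm) (by rw [hcX']; exact hl) (by rw [hcX']; exact hoo)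
  rw [hcX'] at h6
  exact ⟨h5, h6, hl⟩

end

end Cfsg.Agent.Lib.H16XI
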