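import Cfsg.Agent.Lib.H16XV
import Cfsg.Agent.Lib.BlockInfl

/-!
# The invariants of the principal 3-block (helper16)
-/

set_option autoImplicit false
set_option linter.all false

namespace Cfsg.Agent.Lib.H16XI

open Cfsg Cfsg.Agent.Lib Cfsg.Agent.Lib.BlockRing Cfsg.Agent.Lib.BlockGA Cfsg.Agent.Lib.BlockIdem
open Cfsg.Agent.Lib.BlockPair Cfsg.Agent.Lib.Contrib Cfsg.Agent.Lib.BlockSection
open Cfsg.Agent.Lib.CharBasic Cfsg.Agent.Lib.H16XE Cfsg.Agent.Lib.H16XG Cfsg.Agent.Lib.PPart
open Cfsg.Agent.Lib.Subsec (Cz mem_Cz fs mem_fs sum_fs al al_eq)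
open Cfsg.Agent.Lib.H16XA (XD XS zL XL mem_XL mem_zpL PC)
open Cfsg.Agent.Lib.BlockDefect Cfsg.Agent.Lib.BlockDeg Cfsg.Agent.Lib.H16XT
open scoped ComplexConjugate Classical

universe u

variable {M : Ideal AlgInt} {G : Type u} [Group G] [Finite G]
variable {P : Sylow 3 G} {z : G} {X : Finset G}

theorem main_real (h : XS P z X) (hM : IsPModular 3 M) (hm : X.card = 1 ∨ X.card = 2 ∨ X.card = 4) :
    Nat.card (principalBlock M G) = 6 + 2 * (6 - X.card) ∧
    Nat.card {χ : IrrCharacter G // χ ∈ principalBlock M G ∧ blockHeight 3 (principalBlock M G) (χ : G → ℂ) = 0} = 6 ∧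
    blockRank 3 (principalBlock M G) = 6 - X.card := by
  haveI : Fact (Nat.Prime 3) := ⟨Nat.prime_three⟩
  haveI := isPrime hM
  have hB : IsPBlock M (principalBlock M G) := BlockThird.isPBlock_principal
  obtain ⟨t, ha, hα, hd, hdeg, ho⟩ := exists_tab h hM
  have hX0 : 0 < X.card := by omega
  obtain ⟨y, hy⟩ := Finset.card_pos.1 hX0
  obtain ⟨h1, h2, h3⟩ := global_table h hM ⟨y, hy⟩ hm t hα ho
  have hk : Nat.card (principalBlock M G) = 6 + 2 * (6 - X.card) := by
    rw [Nat.card_eq_fintype_card, t.card_split, h1, h2]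
  refine ⟨hk, ?_, ?_⟩
  · rw [← h1]
    have e1 : {χ : IrrCharacter G // χ ∈ principalBlock M G ∧
        blockHeight 3 (principalBlock M G) (χ : G → ℂ) = 0} ≃
        {χ : principalBlock M G // ¬ (3 : ℤ) ∣ t.deg χ} :=
      { toFun := fun χ => ⟨⟨χ.1, χ.2.1⟩, by rw [hdeg]; exact (height_zero_iff _).1 χ.2.2⟩
        invFun := fun χ => ⟨χ.1.1, χ.1.2, by
          have := χ.2
          rw [hdeg] at this
          exact (height_zero_iff _).2 this⟩
        left_inv := fun χ => rfl
        right_inv := fun χ => rfl }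
    rw [Nat.card_congr e1, Nat.card_eq_fintype_card, Fintype.card_subtype]
    rfl
  · have e1 := Subsec.trace_contrib hM hB
    have e2 : ∑ χ : principalBlock M G, (t.a χ χ : ℂ) = 27 * (blockRank 3 (principalBlock M G) : ℂ) := by
      rw [← e1, Finset.mul_sum, sum_fs (principalBlock M G)
        (fun χ => 27 * contrib 3 (χ : G → ℂ) (χ : G → ℂ))]
      exact Finset.sum_congr rfl fun χ _ => by rw [ha, cn_one]
    have e3 : ∑ χ : principalBlock M G, ((t.a χ χ : ℂ) + t.α χ χ + t.α χ χ + 3 * (t.N χ : ℂ)) =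
        27 * (Nat.card (principalBlock M G) : ℂ) := by
      have e4 : ∀ χ : principalBlock M G, (t.a χ χ : ℂ) + t.α χ χ + t.α χ χ + 3 * (t.N χ : ℂ) = 27 := by
        intro χ
        have e5 := t.h1 χ χ
        rw [if_pos rfl, t.αh] at e5
        rw [← e5]
        unfold Tab.N
        push_cast; rfl
      rw [Finset.sum_congr rfl fun χ _ => e4 χ, Finset.sum_const, Finset.card_univ, nsmul_eq_mul,
        Nat.card_eq_fintype_card]
      ring
    rw [Finset.sum_add_distrib, Finset.sum_add_distrib, Finset.sum_add_distrib, e2, t.αtr, ← Finset.mul_sum,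
      ← Int.cast_sum, t.sum_N, Fintype.card_coe, h3, hk] at e3
    have hle : X.card ≤ 6 := by omega
    have e6 : ((blockRank 3 (principalBlock M G) : ℕ) : ℂ) = ((6 - X.card : ℕ) : ℂ) := by
      push_cast [Nat.cast_sub hle] at e3 ⊢
      linear_combination (1 / 27 : ℂ) * e3
    exact_mod_cast e6

/-- the quotient part of the nilpotent case -/
theorem nilp_count (hM : IsPModular 3 M) {N : Subgroup G} [N.Normal] (hN : ¬ 3 ∣ Nat.card N) (hi : N.index = 27)
    (hc : (commutator (G ⧸ N)).index = 9) :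
    Nat.card (principalBlock M G) = 11 ∧
    Nat.card {χ : IrrCharacter G // χ ∈ principalBlock M G ∧ blockHeight 3 (principalBlock M G) (χ : G → ℂ) = 0} = 9 ∧
    blockRank 3 (principalBlock M G) = 1 := by
  haveI : Fact (Nat.Prime 3) := ⟨Nat.prime_three⟩
  haveI := isPrime hM
  have hB : IsPBlock M (principalBlock M G) := BlockThird.isPBlock_principal
  have hi' : N.index = 3 ^ 3 := by rw [hi]; norm_num
  have hcard : Nat.card (G ⧸ N) = 27 := hi
  -- the inflation
  set infl : IrrCharacter (G ⧸ N) → principalBlock M G := fun ψ =>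
    ⟨⟨fun x : G => (ψ : G ⧸ N → ℂ) (x : G ⧸ N), ψ.2.inflate N⟩,
      BlockCore.mem_principal_of_ker hM hi' (fun n hn => by
        show (ψ : G ⧸ N → ℂ) (n : G ⧸ N) = (ψ : G ⧸ N → ℂ) ((1 : G) : G ⧸ N)
        rw [(QuotientGroup.eq_one_iff n).2 hn]; rfl)⟩ with hinfl
  have hbij : Function.Bijective infl := by
    constructor
    · intro ψ ψ' hψ
      apply Subtype.ext
      funext q
      obtain ⟨g, rfl⟩ := QuotientGroup.mk_surjective q
      have h1 := congrArg Subtype.val hψ
      have h2 := congrArg Subtype.val h1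
      exact congrFun h2 g
    · intro χ
      obtain ⟨ψ, -, hψ⟩ := BlockInfl.exists_deflate hM N hN χ.2
      refine ⟨ψ, Subtype.ext (Subtype.ext (funext fun g => (hψ g).symm))⟩
  have hval : ∀ ψ : IrrCharacter (G ⧸ N), ((infl ψ : IrrCharacter G) : G → ℂ) 1 = (ψ : G ⧸ N → ℂ) 1 := fun ψ => rfl
  -- degrees
  have hdeg : ∀ ψ : IrrCharacter (G ⧸ N), charDegree (ψ : G ⧸ N → ℂ) = 1 ∨ charDegree (ψ : G ⧸ N → ℂ) = 3 := by
    intro ψ
    have h1 : charDegree (ψ : G ⧸ N → ℂ) ∣ 3 ^ 3 := by
      have := charDegree_dvd_card (G := G ⧸ N) ψ.2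
      rw [hcard] at this
      simpa using this
    obtain ⟨j, hj, hjd⟩ := (Nat.dvd_prime_pow Nat.prime_three).1 h1
    have h2 : (charDegree (ψ : G ⧸ N → ℂ)) ^ 2 ≤ 27 := by
      have h3 := sum_degree_sq (G := G ⧸ N)
      have h4 : ((∑ χ : IrrCharacter (G ⧸ N), (charDegree (χ : G ⧸ N → ℂ)) ^ 2 : ℕ) : ℂ) = (27 : ℕ) := by
        push_cast
        rw [hcard] at h3
        have h3' : ∑ χ : IrrCharacter (G ⧸ N), (χ : G ⧸ N → ℂ) 1 ^ 2 = 27 := by rw [h3]; norm_num
        rw [← h3']
        exact Finset.sum_congr rfl fun χ _ => by rw [charDegree_cast_irr]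
      have h5 : ∑ χ : IrrCharacter (G ⧸ N), (charDegree (χ : G ⧸ N → ℂ)) ^ 2 = 27 := by exact_mod_cast h4
      rw [← h5]
      exact Finset.single_le_sum (f := fun χ : IrrCharacter (G ⧸ N) => (charDegree (χ : G ⧸ N → ℂ)) ^ 2)
        (fun _ _ => Nat.zero_le _) (Finset.mem_univ ψ)
    rw [hjd] at h2 ⊢
    interval_cases j
    · left; norm_num
    · right; norm_num
    · norm_num at h2
    · norm_num at h2
  have hlin := card_linear (G := G ⧸ N)
  rw [hc] at hlin
  have hlin' : (Finset.univ.filter (fun ψ : IrrCharacter (G ⧸ N) => charDegree (ψ : G ⧸ N → ℂ) = 1)).card = 9 := by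
    rw [← hlin, Nat.card_eq_fintype_card, Fintype.card_subtype]
    congr 1
    ext ψ
    simp only [Finset.mem_filter, Finset.mem_univ, true_and]
    rw [← charDegree_cast_irr]
    exact ⟨fun h => by rw [h]; norm_num, fun h => by exact_mod_cast h⟩
  have hsq : ∑ χ : IrrCharacter (G ⧸ N), (charDegree (χ : G ⧸ N → ℂ)) ^ 2 = 27 := by
    have h3 := sum_degree_sq (G := G ⧸ N)
    have h4 : ((∑ χ : IrrCharacter (G ⧸ N), (charDegree (χ : G ⧸ N → ℂ)) ^ 2 : ℕ) : ℂ) = (27 : ℕ) := by
      push_cast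
      rw [hcard] at h3
      have h3' : ∑ χ : IrrCharacter (G ⧸ N), (χ : G ⧸ N → ℂ) 1 ^ 2 = 27 := by rw [h3]; norm_num
      rw [← h3']
      exact Finset.sum_congr rfl fun χ _ => by rw [charDegree_cast_irr]
    exact_mod_cast h4
  have hkQ : Nat.card (IrrCharacter (G ⧸ N)) = 11 := by
    rw [← Finset.sum_filter_add_sum_filter_not Finset.univ
      (fun ψ : IrrCharacter (G ⧸ N) => charDegree (ψ : G ⧸ N → ℂ) = 1)] at hsq
    have e1 : ∑ χ ∈ Finset.univ.filter (fun ψ : IrrCharacter (G ⧸ N) => charDegree (ψ : G ⧸ N → ℂ) = 1),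
        (charDegree (χ : G ⧸ N → ℂ)) ^ 2 = 9 := by
      rw [Finset.sum_congr rfl (g := fun _ => 1) (fun χ hχ => by rw [(Finset.mem_filter.1 hχ).2]; norm_num),
        Finset.sum_const, hlin']; norm_num
    have e2 : ∑ χ ∈ Finset.univ.filter (fun ψ : IrrCharacter (G ⧸ N) => ¬ charDegree (ψ : G ⧸ N → ℂ) = 1),
        (charDegree (χ : G ⧸ N → ℂ)) ^ 2 =
        9 * (Finset.univ.filter (fun ψ : IrrCharacter (G ⧸ N) => ¬ charDegree (ψ : G ⧸ N → ℂ) = 1)).card := by
      rw [Finset.sum_congr rfl (g := fun _ => 9) (fun χ hχ => by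
        rcases hdeg χ with h | h
        · exact absurd h (Finset.mem_filter.1 hχ).2
        · rw [h]; norm_num), Finset.sum_const, smul_eq_mul, mul_comm]
    rw [e1, e2] at hsq
    have e3 := Finset.card_filter_add_card_filter_not (s := (Finset.univ : Finset (IrrCharacter (G ⧸ N))))
      (fun ψ : IrrCharacter (G ⧸ N) => charDegree (ψ : G ⧸ N → ℂ) = 1)
    rw [hlin', Finset.card_univ] at e3
    rw [Nat.card_eq_fintype_card, ← e3]
    omega
  refine ⟨?_, ?_, ?_⟩
  · rw [← hkQ]
    exact (Nat.card_congr (Equiv.ofBijective infl hbij)).symm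
  · rw [← hlin]
    symm
    refine Nat.card_congr (Equiv.ofBijective (fun ψ => (⟨(infl ψ.1 : IrrCharacter G), (infl ψ.1).2, ?_⟩ :
      {χ : IrrCharacter G // χ ∈ principalBlock M G ∧ blockHeight 3 (principalBlock M G) (χ : G → ℂ) = 0})) ⟨?_, ?_⟩)
    · rw [height_zero_iff]
      have h1 : charDegree ((infl ψ.1 : IrrCharacter G) : G → ℂ) = 1 := by
        have := charDegree_cast_irr (infl ψ.1 : IrrCharacter G)
        rw [hval, ψ.2] at this
        exact_mod_cast this
      rw [h1]; norm_num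
    · intro ψ ψ' hψ
      apply Subtype.ext
      apply hbij.1
      have h9 := congrArg Subtype.val hψ
      exact Subtype.ext h9
    · intro χ
      obtain ⟨ψ, hψ⟩ := hbij.2 ⟨χ.1, χ.2.1⟩
      have h1 := (height_zero_iff χ.1).1 χ.2.2
      have h2 : charDegree (ψ : G ⧸ N → ℂ) = charDegree ((χ.1 : IrrCharacter G) : G → ℂ) := by
        have e1 := charDegree_cast_irr ψ
        have e2 := charDegree_cast_irr χ.1
        have e3 : ((infl ψ : IrrCharacter G) : G → ℂ) 1 = ((χ.1 : IrrCharacter G) : G → ℂ) 1 := by rw [hψ]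
        rw [hval] at e3
        have : (charDegree (ψ : G ⧸ N → ℂ) : ℂ) = charDegree ((χ.1 : IrrCharacter G) : G → ℂ) := by
          rw [e1, e2, e3]
        exact_mod_cast this
      have h3 : charDegree (ψ : G ⧸ N → ℂ) = 1 := by
        rcases hdeg ψ with h | h
        · exact h
        · exfalso; apply h1; rw [← h2, h]; norm_num
      refine ⟨⟨ψ, ?_⟩, Subtype.ext ?_⟩
      · rw [← charDegree_cast_irr, h3]; norm_num
      · show (infl ψ : IrrCharacter G) = χ.1
        rw [hψ]
  · have := Fintype.ofFinite G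
    have e1 := Subsec.trace_contrib hM hB
    have e2 : ∑ χ ∈ fs (principalBlock M G), contrib 3 (χ : G → ℂ) (χ : G → ℂ) = 1 := by
      have h1 : ∀ χ : IrrCharacter G, contrib 3 (χ : G → ℂ) (χ : G → ℂ) = (Nat.card G : ℂ)⁻¹ *
          ∑ s : G, if 3 ∣ orderOf s then 0 else (χ : G → ℂ) s * conj ((χ : G → ℂ) s) := by
        intro χ
        rw [← cn_one]
        unfold cn
        rw [card_Cz_central (u := (1 : G)) (fun g => by simp), J_central (u := (1 : G)) (fun g => by simp)]
        congr 1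
        refine Finset.sum_congr rfl fun s _ => ?_
        rw [one_mul]
      rw [Finset.sum_congr rfl fun χ _ => h1 χ, ← Finset.mul_sum, Finset.sum_comm]
      have h2 : ∀ s : G, (∑ χ ∈ fs (principalBlock M G), if 3 ∣ orderOf s then 0 else
          (χ : G → ℂ) s * conj ((χ : G → ℂ) s)) = if s ∈ N then 27 else 0 := by
        intro s
        by_cases hs : s ∈ N
        · have hs' := (mem_of_reg hN hi' s).1 hs
          rw [if_pos hs]
          simp only [if_neg hs']
          have h3 := sum_principal_of_normal_complement hM hN hi' hs' hs'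
          rw [finsum_mem_eq_finite_toFinset_sum _ (Set.toFinite _)] at h3
          rw [show (27 : ℂ) = ((3 : ℕ) : ℂ) ^ 3 by norm_num, ← h3]
        · have hs' : 3 ∣ orderOf s := by
            by_contra h4; exact hs ((mem_of_reg hN hi' s).2 h4)
          rw [if_neg hs]
          simp only [if_pos hs', Finset.sum_const_zero]
      rw [Finset.sum_congr rfl fun s _ => h2 s, ← Finset.sum_filter, Finset.sum_const, nsmul_eq_mul]
      have h5 : (Finset.univ.filter (fun s : G => s ∈ N)).card = Nat.card N := by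
        rw [Nat.card_eq_fintype_card, Fintype.card_subtype]
      have h6 : (Nat.card G : ℂ) = (Nat.card N : ℂ) * 27 := by
        rw [← N.card_mul_index, hi]; push_cast; ring
      have h7 : (Nat.card N : ℂ) ≠ 0 := Nat.cast_ne_zero.mpr Nat.card_pos.ne'
      rw [h5, h6]
      field_simp
    rw [e2] at e1
    exact_mod_cast e1.symm

/-- the nilpotent case -/
theorem main_one (h : XD P z) (hM : IsPModular 3 M) (hc : (commutator (P : Subgroup G)).index = 9)
    (he : (PC P).relIndex (Subgroup.normalizer ((P : Subgroup G) : Set G)) = 1) :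
    Nat.card (principalBlock M G) = 11 ∧
    Nat.card {χ : IrrCharacter G // χ ∈ principalBlock M G ∧ blockHeight 3 (principalBlock M G) (χ : G → ℂ) = 0} = 9 ∧
    blockRank 3 (principalBlock M G) = 1 := by
  haveI : Fact (Nat.Prime 3) := ⟨Nat.prime_three⟩
  have hNle : Subgroup.normalizer ((P : Subgroup G) : Set G) ≤ PC P := Subgroup.relIndex_eq_one.1 he
  -- the normalizer acts by inner automorphisms
  have hinner : ∀ n ∈ Subgroup.normalizer ((P : Subgroup G) : Set G), ∃ q ∈ (P : Subgroup G),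
      ∀ x ∈ (P : Subgroup G), n * x * n⁻¹ = q * x * q⁻¹ := by
    let K : Subgroup G :=
      { carrier := {n | ∃ q ∈ (P : Subgroup G), ∀ x ∈ (P : Subgroup G), n * x * n⁻¹ = q * x * q⁻¹}
        one_mem' := ⟨1, (P : Subgroup G).one_mem, fun x _ => rfl⟩
        mul_mem' := by
          rintro n₁ n₂ ⟨q₁, hq₁, h₁⟩ ⟨q₂, hq₂, h₂⟩
          refine ⟨q₁ * q₂, (P : Subgroup G).mul_mem hq₁ hq₂, fun x hx => ?_⟩
          have e1 := h₁ (q₂ * x * q₂⁻¹) ((P : Subgroup G).mul_mem ((P : Subgroup G).mul_mem hq₂ hx)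
            ((P : Subgroup G).inv_mem hq₂))
          calc n₁ * n₂ * x * (n₁ * n₂)⁻¹ = n₁ * (n₂ * x * n₂⁻¹) * n₁⁻¹ := by group
            _ = n₁ * (q₂ * x * q₂⁻¹) * n₁⁻¹ := by rw [h₂ x hx]
            _ = q₁ * (q₂ * x * q₂⁻¹) * q₁⁻¹ := e1
            _ = _ := by group
        inv_mem' := by
          rintro n ⟨q, hq, h₁⟩
          refine ⟨q⁻¹, (P : Subgroup G).inv_mem hq, fun x hx => ?_⟩
          have e1 := h₁ (q⁻¹ * x * q) ((P : Subgroup G).mul_mem ((P : Subgroup G).mul_mem
            ((P : Subgroup G).inv_mem hq) hx) hq)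
          have e2 : q * (q⁻¹ * x * q) * q⁻¹ = x := by group
          rw [e2] at e1
          calc n⁻¹ * x * n⁻¹⁻¹ = n⁻¹ * (n * (q⁻¹ * x * q) * n⁻¹) * n := by rw [e1]; group
            _ = _ := by group }
    have hK : PC P ≤ K := by
      refine sup_le (fun q hq => ⟨q, hq, fun x _ => rfl⟩) ?_
      intro c hcc
      refine ⟨1, (P : Subgroup G).one_mem, fun x hx => ?_⟩
      rw [Subgroup.mem_centralizer_iff] at hcc
      rw [← hcc x hx]; group
    intro n hn
    exact hK (hNle hn)
  have hfus : ∀ x ∈ (P : Subgroup G), ∀ y ∈ (P : Subgroup G), IsConj x y → ∃ q ∈ (P : Subgroup G), q * x * q⁻¹ = y := by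
    intro x hx y hy hxy
    obtain ⟨g, hg⟩ := isConj_iff.1 hxy
    by_cases hxz : x ∈ Subgroup.zpowers z
    · refine ⟨1, (P : Subgroup G).one_mem, ?_⟩
      rcases h.mem_zp.1 hxz with rfl | rfl | rfl
      · rw [mul_one, mul_inv_cancel] at hg; simpa using hg
      · rw [h.eq_of_conj hy hg]; group
      · have h1 : g * z * g⁻¹ = y⁻¹ := by rw [← hg]; group
        have h2 := h.eq_of_conj ((P : Subgroup G).inv_mem hy) h1
        rw [← h2]; group
    · obtain ⟨n, hn, hnx⟩ := h.fusion hx hxz hy hg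
      obtain ⟨q, hq, hqx⟩ := hinner n hn
      exact ⟨q, hq, by rw [← hqx x hx]; exact hnx⟩
  have hPcard : Nat.card (P : Subgroup G) = 3 ^ 3 := by rw [h.card]; norm_num
  have hcop : Nat.Coprime (Nat.card (P : Subgroup G)) (P : Subgroup G).index := by
    rw [hPcard]
    exact Nat.Coprime.pow_left _ ((Nat.prime_three.coprime_iff_not_dvd).2 P.not_dvd_index)
  obtain ⟨N, hNn, hN1, hN2⟩ := BrauerApp.normal_complement (P : Subgroup G) hcop hfus (by
    intro E p hp hE hdvd
    have hEp : IsPGroup 3 E := by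
      rw [hPcard] at hdvd
      obtain ⟨j, -, hj⟩ := (Nat.dvd_prime_pow Nat.prime_three).1 hdvd
      exact IsPGroup.of_card hj
    obtain ⟨Q, hQ⟩ := hEp.exists_le_sylow
    obtain ⟨c, hc⟩ := MulAction.exists_smul_eq G Q P
    refine ⟨c, ?_⟩
    rw [← hc, Sylow.coe_subgroup_smul]
    exact Subgroup.map_mono hQ)
  have hcompl : N.IsComplement' (P : Subgroup G) := by
    apply Subgroup.isComplement'_of_disjoint_and_mul_eq_univ
    · rw [disjoint_iff]; exact hN2
    · rw [← Subgroup.normal_mul, hN1]; rfl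
  have hNi : N.index = 27 := by
    rw [hcompl.symm.index_eq_card, h.card]
  have hNc : ¬ 3 ∣ Nat.card N := by
    have h1 : Nat.card N = (P : Subgroup G).index := hcompl.index_eq_card.symm
    rw [h1]
    exact P.not_dvd_index
  -- the quotient is isomorphic to `P`
  have hcomm : (commutator (G ⧸ N)).index = 9 := by
    have e : (P : Subgroup G) ≃* G ⧸ N := by
      refine MulEquiv.ofBijective ((QuotientGroup.mk' N).comp (P : Subgroup G).subtype) ⟨?_, ?_⟩
      · rw [injective_iff_map_eq_one]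
        intro x hx
        have h1 : (x : G) ∈ N := (QuotientGroup.eq_one_iff (x : G)).1 hx
        have h2 : (x : G) ∈ N ⊓ (P : Subgroup G) := ⟨h1, x.2⟩
        rw [hN2] at h2
        exact Subtype.ext (Subgroup.mem_bot.1 h2)
      · intro q
        obtain ⟨g, rfl⟩ := QuotientGroup.mk_surjective q
        have h1 : g ∈ N ⊔ (P : Subgroup G) := by rw [hN1]; trivial
        rw [Subgroup.mem_sup_of_normal_left] at h1
        obtain ⟨n, hn, x, hx, rfl⟩ := h1
        refine ⟨⟨x, hx⟩, ?_⟩
        show ((x : G) : G ⧸ N) = ((n * x : G) : G ⧸ N)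
        rw [QuotientGroup.mk_mul, (QuotientGroup.eq_one_iff n).2 hn, one_mul]
    have h1 : (commutator (P : Subgroup G)).map e.toMonoidHom = commutator (G ⧸ N) := by
      rw [commutator_def, commutator_def, Subgroup.map_commutator]
      congr 1 <;> exact Subgroup.map_top_of_surjective _ e.surjective
    rw [← h1, ← hc]
    exact Subgroup.index_map_equiv _ e
  exact nilp_count hM hNc hNi hcomm

end Cfsg.Agent.Lib.H16XI
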