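import Cfsg.Agent.Lib.AgemoMeta

/-! `p`-central `p`-groups, `p` odd: the subgroups `W j = {x | x ^ p ^ j = 1}`. -/

set_option autoImplicit false

namespace Cfsg.Agent.Lib.H17Pc

open Subgroup

universe u

/-- iterated form of `AgemoMeta.pcentral` -/
theorem pow_iff {p : ℕ} [Fact p.Prime] (hp2 : p ≠ 2) (j : ℕ) : ∀ {C : Type u} [Group C] [Finite C], IsPGroup p C →
    (∀ x : C, x ^ p = 1 → ∀ y : C, Commute x y) →
    ∀ x y : C, x ^ p ^ j = y ^ p ^ j ↔ (x⁻¹ * y) ^ p ^ j = 1 := by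
  induction j with
  | zero =>
    intro C _ _ _ _ x y
    simp only [pow_zero, pow_one]
    exact ⟨fun h => by rw [h]; simp, fun h => by rw [inv_mul_eq_one] at h; exact h⟩
  | succ j ih =>
    intro C _ _ hC hc x y
    have key : ∀ a b : C, a ^ p = b ^ p ↔ (a⁻¹ * b) ^ p = 1 := by
      intro a b
      constructor
      · intro h
        exact AgemoMeta.pcentral hp2 hC (C := ⊤) (fun x _ hx y _ => hc x hx y) (mem_top _) (mem_top _) h
      · intro h
        have h1 : b = a * (a⁻¹ * b) := by group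
        have h2 : Commute a (a⁻¹ * b) := (hc _ h a).symm
        rw [h1, h2.mul_pow, h, mul_one]
    let Om : Subgroup C :=
      { carrier := {x | x ^ p = 1}
        one_mem' := one_pow _
        mul_mem' := fun {a b} ha hb => by
          show (a * b) ^ p = 1
          rw [(hc a ha b).mul_pow, show a ^ p = 1 from ha, show b ^ p = 1 from hb, mul_one]
        inv_mem' := fun {a} ha => by
          show (a⁻¹) ^ p = 1
          rw [inv_pow, show a ^ p = 1 from ha, inv_one] }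
    have hOm : ∀ a : C, a ∈ Om ↔ a ^ p = 1 := fun a => Iff.rfl
    haveI : Om.Normal := ⟨fun n hn g => by
      rw [show g * n * g⁻¹ = n by rw [← (hc n hn g).eq]; group]
      exact hn⟩
    have hQ : ∀ z : C ⧸ Om, z ^ p = 1 → ∀ w : C ⧸ Om, Commute z w := by
      intro z hz w
      obtain ⟨a, rfl⟩ := QuotientGroup.mk_surjective z
      obtain ⟨b, rfl⟩ := QuotientGroup.mk_surjective w
      have h1 : a ^ p ∈ Om := by rwa [← QuotientGroup.mk_pow, QuotientGroup.eq_one_iff] at hz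
      have h2 : a ^ p = (b * a * b⁻¹) ^ p := by
        rw [conj_pow, ← (hc _ h1 b).eq]; group
      have h3 := (key _ _).1 h2
      have h4 : (QuotientGroup.mk (a⁻¹ * (b * a * b⁻¹)) : C ⧸ Om) = 1 := (QuotientGroup.eq_one_iff _).2 h3
      have h5 : ((a : C ⧸ Om))⁻¹ * ((b : C ⧸ Om) * a * (b : C ⧸ Om)⁻¹) = 1 := h4
      rw [inv_mul_eq_one, eq_mul_inv_iff_mul_eq] at h5
      exact h5
    have ih' := ih (C := C ⧸ Om) (hC.to_quotient Om) hQ (x : C ⧸ Om) (y : C ⧸ Om)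
    have e1 : x ^ p ^ (j + 1) = y ^ p ^ (j + 1) ↔ (x : C ⧸ Om) ^ p ^ j = (y : C ⧸ Om) ^ p ^ j := by
      rw [pow_succ, pow_mul, pow_mul, key, ← QuotientGroup.mk_pow, ← QuotientGroup.mk_pow, QuotientGroup.eq]
      exact Iff.rfl
    have e2 : ((x : C ⧸ Om)⁻¹ * (y : C ⧸ Om)) ^ p ^ j = 1 ↔ (x⁻¹ * y) ^ p ^ (j + 1) = 1 := by
      rw [← QuotientGroup.mk_inv, ← QuotientGroup.mk_mul, ← QuotientGroup.mk_pow, QuotientGroup.eq_one_iff, hOm,
        pow_succ, pow_mul]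
    rw [e1, ih', e2]

variable {G : Type u} [Group G] [Finite G] {p : ℕ} [hp : Fact p.Prime] {C : Subgroup G}

/-- version for a subgroup -/
theorem pow_iff' (hp2 : p ≠ 2) (hG : IsPGroup p C) (hc : ∀ x ∈ C, x ^ p = 1 → ∀ y ∈ C, Commute x y) (j : ℕ)
    {x y : G} (hx : x ∈ C) (hy : y ∈ C) : x ^ p ^ j = y ^ p ^ j ↔ (x⁻¹ * y) ^ p ^ j = 1 := by
  have h := pow_iff hp2 j (C := C) hG (fun x hx y => Subtype.ext (hc x x.2 (congrArg Subtype.val hx) y y.2))
    ⟨x, hx⟩ ⟨y, hy⟩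
  rw [Subtype.ext_iff, Subtype.ext_iff] at h
  exact h

/-- `W j`: the elements of `C` of order dividing `p ^ j`. -/
def W (hp2 : p ≠ 2) (hG : IsPGroup p C) (hc : ∀ x ∈ C, x ^ p = 1 → ∀ y ∈ C, Commute x y) (j : ℕ) : Subgroup G where
  carrier := {x | x ∈ C ∧ x ^ p ^ j = 1}
  one_mem' := ⟨one_mem _, one_pow _⟩
  mul_mem' := by
    rintro a b ⟨ha, ha'⟩ ⟨hb, hb'⟩
    refine ⟨mul_mem ha hb, ?_⟩
    have h := (pow_iff' hp2 hG hc j (inv_mem ha) hb).1 (by rw [inv_pow, ha', hb', inv_one])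
    rwa [inv_inv] at h
  inv_mem' := by
    rintro a ⟨ha, ha'⟩
    exact ⟨inv_mem ha, by rw [inv_pow, ha', inv_one]⟩

variable (hp2 : p ≠ 2) (hG : IsPGroup p C) (hc : ∀ x ∈ C, x ^ p = 1 → ∀ y ∈ C, Commute x y)

theorem mem_W {j : ℕ} {x : G} : x ∈ W hp2 hG hc j ↔ x ∈ C ∧ x ^ p ^ j = 1 := Iff.rfl

theorem W_le (j : ℕ) : W hp2 hG hc j ≤ C := fun _ hx => hx.1

theorem W_mono {i j : ℕ} (h : i ≤ j) : W hp2 hG hc i ≤ W hp2 hG hc j := by
  rintro x ⟨hx, hx'⟩
  refine ⟨hx, ?_⟩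
  obtain ⟨k, rfl⟩ := Nat.exists_eq_add_of_le h
  rw [pow_add, pow_mul, hx', one_pow]

theorem W_zero : W hp2 hG hc 0 = ⊥ := by
  rw [eq_bot_iff]
  rintro x ⟨-, hx⟩
  rw [pow_zero, pow_one] at hx
  exact hx

/-- `C` normal: `W j` is normal -/
theorem W_conj {N : Subgroup G} (hN : ∀ g ∈ N, ∀ x ∈ C, g * x * g⁻¹ ∈ C) (j : ℕ) :
    ∀ g ∈ N, ∀ x ∈ W hp2 hG hc j, g * x * g⁻¹ ∈ W hp2 hG hc j := by
  rintro g hg x ⟨hx, hx'⟩
  refine ⟨hN g hg x hx, ?_⟩
  rw [conj_pow, hx']; group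

/-- the set of `p ^ j`-th powers of the elements of `W (j + 1)` -/
def I (j : ℕ) : Set G := {e | ∃ w ∈ W hp2 hG hc (j + 1), w ^ p ^ j = e}

theorem I_sub (j : ℕ) : I hp2 hG hc j ⊆ (W hp2 hG hc 1 : Set G) := by
  rintro _ ⟨w, ⟨hw, hw'⟩, rfl⟩
  refine ⟨pow_mem hw _, ?_⟩
  rw [← pow_mul, pow_one, ← pow_succ, hw']

theorem I_anti (j : ℕ) : I hp2 hG hc (j + 1) ⊆ I hp2 hG hc j := by
  rintro _ ⟨w, ⟨hw, hw'⟩, rfl⟩
  refine ⟨w ^ p, ⟨pow_mem hw _, ?_⟩, ?_⟩
  · rw [← pow_mul, ← pow_succ']; exact hw'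
  · rw [← pow_mul, ← pow_succ']

theorem I_anti' {i j : ℕ} (h : i ≤ j) : I hp2 hG hc j ⊆ I hp2 hG hc i := by
  obtain ⟨k, rfl⟩ := Nat.exists_eq_add_of_le h
  induction k with
  | zero => exact le_rfl
  | succ k ih => exact (I_anti hp2 hG hc (i + k)).trans (ih (by omega))

theorem relIndex_eq (j : ℕ) : (W hp2 hG hc j).relIndex (W hp2 hG hc (j + 1)) = Nat.card (I hp2 hG hc j) := by
  rw [relIndex, index]
  refine Nat.card_congr (Equiv.ofBijective (Quotient.lift (fun w : W hp2 hG hc (j + 1) =>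
    (⟨(w : G) ^ p ^ j, w, w.2, rfl⟩ : I hp2 hG hc j)) ?_) ⟨?_, ?_⟩)
  · intro a b hab
    have h1 : a⁻¹ * b ∈ (W hp2 hG hc j).subgroupOf (W hp2 hG hc (j + 1)) := QuotientGroup.leftRel_apply.1 hab
    rw [mem_subgroupOf] at h1
    apply Subtype.ext
    exact (pow_iff' hp2 hG hc j a.2.1 b.2.1).2 h1.2
  · intro a b
    refine Quotient.inductionOn₂ a b fun a b hab => ?_
    have h1 : (a : G) ^ p ^ j = (b : G) ^ p ^ j := congrArg Subtype.val hab
    apply Quotient.sound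
    show (QuotientGroup.leftRel _).r _ _
    rw [QuotientGroup.leftRel_apply, mem_subgroupOf]
    exact ⟨mul_mem (inv_mem a.2.1) b.2.1, (pow_iff' hp2 hG hc j a.2.1 b.2.1).1 h1⟩
  · rintro ⟨_, w, hw, rfl⟩
    exact ⟨Quotient.mk _ ⟨w, hw⟩, rfl⟩

theorem card_succ (j : ℕ) :
    Nat.card (W hp2 hG hc (j + 1)) = Nat.card (W hp2 hG hc j) * Nat.card (I hp2 hG hc j) := by
  rw [← relIndex_eq]
  rw [← relIndex_bot_left, ← relIndex_bot_left, relIndex_mul_relIndex _ _ _ bot_le (W_mono hp2 hG hc (Nat.le_succ j))]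

theorem card_I_pow (j : ℕ) : ∃ r, Nat.card (I hp2 hG hc j) = p ^ r := by
  have hW : IsPGroup p (W hp2 hG hc (j + 1)) := hG.to_le (W_le hp2 hG hc (j + 1))
  obtain ⟨k, hk⟩ := IsPGroup.iff_card.1 hW
  have h1 : Nat.card (I hp2 hG hc j) ∣ p ^ k := by
    rw [← hk, card_succ]; exact Dvd.intro_left _ rfl
  obtain ⟨r, -, hr⟩ := (Nat.dvd_prime_pow hp.out).1 h1
  exact ⟨r, hr⟩

variable (hW1 : Nat.card (W hp2 hG hc 1) = p ^ 2)

include hW1 in
theorem card_I_le (j : ℕ) : Nat.card (I hp2 hG hc j) ≤ p ^ 2 := by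
  rw [← hW1]
  exact Nat.card_mono (Set.toFinite _) (I_sub hp2 hG hc j)

include hW1 in
theorem I_eq_of_card {j : ℕ} (h : Nat.card (I hp2 hG hc j) = p ^ 2) : I hp2 hG hc j = (W hp2 hG hc 1 : Set G) := by
  refine Set.eq_of_subset_of_ncard_le (I_sub hp2 hG hc j) ?_ (Set.toFinite _)
  rw [← Nat.card_coe_set_eq, ← Nat.card_coe_set_eq, h]
  exact le_of_eq hW1

include hW1 in
/-- a full layer: all the layers below are full -/
theorem card_W_of_full {j : ℕ} (h : Nat.card (I hp2 hG hc j) = p ^ 2) :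
    ∀ i ≤ j + 1, Nat.card (W hp2 hG hc i) = p ^ (2 * i) := by
  have hj := I_eq_of_card hp2 hG hc hW1 h
  have hall : ∀ i ≤ j, Nat.card (I hp2 hG hc i) = p ^ 2 := by
    intro i hi
    have h1 : I hp2 hG hc i = (W hp2 hG hc 1 : Set G) :=
      Set.Subset.antisymm (I_sub hp2 hG hc i) (by rw [← hj]; exact I_anti' hp2 hG hc hi)
    rw [h1]; exact hW1
  intro i
  induction i with
  | zero => intro _; rw [W_zero]; simp
  | succ i ih =>
    intro hi
    rw [card_succ, ih (by omega), hall i (by omega), ← pow_add]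
    ring_nf

/-- there is `k` with `W k = C` -/
theorem exists_top : ∃ k, W hp2 hG hc k = C := by
  obtain ⟨k, hk⟩ := IsPGroup.iff_card.1 hG
  refine ⟨k, le_antisymm (W_le _ _ _ _) fun x hx => ⟨hx, ?_⟩⟩
  have h1 : (⟨x, hx⟩ : C) ^ Nat.card C = 1 := pow_card_eq_one'
  rw [hk] at h1
  exact congrArg Subtype.val h1

include hW1 in
/-- the top layer and its neighbours, when the exponent `m` of `|C|` is odd -/
theorem layers {m : ℕ} (hm : Nat.card C = p ^ m) (hodd : Odd m) (h3 : 3 ≤ m) : ∃ k, 2 ≤ k ∧ W hp2 hG hc k = C ∧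
    Nat.card (W hp2 hG hc (k - 1)) = p ^ (m - 1) ∧ Nat.card (I hp2 hG hc (k - 1)) = p ∧
    (Nat.card (W hp2 hG hc (k - 2)) = p ^ (m - 3) ∨ (3 ≤ k ∧ Nat.card (W hp2 hG hc (k - 3)) = p ^ (m - 3))) := by
  classical
  have hp1 := hp.out.one_lt
  obtain ⟨k, hk, hmin⟩ : ∃ k, W hp2 hG hc k = C ∧ ∀ i < k, W hp2 hG hc i ≠ C :=
    ⟨Nat.find (exists_top hp2 hG hc), Nat.find_spec (exists_top hp2 hG hc),
      fun i hi => Nat.find_min (exists_top hp2 hG hc) hi⟩
  have hk2 : 2 ≤ k := by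
    by_contra hcon
    have h1 : W hp2 hG hc k ≤ W hp2 hG hc 1 := W_mono hp2 hG hc (by omega)
    have h2 : Nat.card (W hp2 hG hc k) ≤ Nat.card (W hp2 hG hc 1) := Nat.card_mono (Set.toFinite _) h1
    rw [hk] at h2
    rw [hm, hW1] at h2
    exact absurd h2 (not_le.2 (Nat.pow_lt_pow_right hp1 (by omega)))
  -- the values `p` or `p ^ 2` of the layers
  have hval : ∀ j, Nat.card (I hp2 hG hc j) = 1 ∨ Nat.card (I hp2 hG hc j) = p ∨ Nat.card (I hp2 hG hc j) = p ^ 2 := by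
    intro j
    obtain ⟨r, hr⟩ := card_I_pow hp2 hG hc j
    have h1 := card_I_le hp2 hG hc hW1 j
    rw [hr] at h1
    have h2 : r ≤ 2 := (Nat.pow_le_pow_iff_right hp1).1 h1
    interval_cases r
    · left; rw [hr, pow_zero]
    · right; left; rw [hr, pow_one]
    · right; right; exact hr
  have hne1 : ∀ j < k, Nat.card (I hp2 hG hc j) ≠ 1 := by
    intro j hj h1
    have hI : I hp2 hG hc (k - 1) ⊆ I hp2 hG hc j := I_anti' hp2 hG hc (by omega)
    have h2 : Nat.card (I hp2 hG hc (k - 1)) ≤ 1 := by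
      have h5 := Nat.card_mono (Set.toFinite _) hI
      rwa [h1] at h5
    have h3 := card_succ hp2 hG hc (k - 1)
    rw [show k - 1 + 1 = k by omega, hk] at h3
    have h4 : Nat.card C ≤ Nat.card (W hp2 hG hc (k - 1)) := by
      rw [h3]
      calc Nat.card (W hp2 hG hc (k - 1)) * Nat.card (I hp2 hG hc (k - 1))
          ≤ Nat.card (W hp2 hG hc (k - 1)) * 1 := Nat.mul_le_mul_left _ h2
        _ = _ := mul_one _
    have h5 : W hp2 hG hc (k - 1) = C :=
      SetLike.coe_injective (Set.eq_of_subset_of_ncard_le (W_le hp2 hG hc (k - 1))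
        (by rw [← Nat.card_coe_set_eq, ← Nat.card_coe_set_eq]; exact h4) (Set.toFinite _))
    exact hmin (k - 1) (by omega) h5
  have hfull : ∀ j, Nat.card (I hp2 hG hc j) = p ^ 2 → Nat.card (W hp2 hG hc (j + 1)) = p ^ (2 * (j + 1)) :=
    fun j hj => card_W_of_full hp2 hG hc hW1 hj (j + 1) le_rfl
  obtain ⟨t, ht⟩ := hodd
  -- top layer
  have hI1 : Nat.card (I hp2 hG hc (k - 1)) = p := by
    rcases hval (k - 1) with h | h | h
    · exact absurd h (hne1 _ (by omega))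
    · exact h
    · have h1 := hfull _ h
      rw [show k - 1 + 1 = k by omega, hk, hm] at h1
      have h2 := Nat.pow_right_injective hp.out.two_le h1
      omega
  have hW2 : Nat.card (W hp2 hG hc (k - 1)) = p ^ (m - 1) := by
    have h1 := card_succ hp2 hG hc (k - 1)
    rw [show k - 1 + 1 = k by omega, hk, hI1, hm] at h1
    have h2 : p ^ m = p ^ (m - 1) * p := by rw [← pow_succ]; congr 1; omega
    rw [h2] at h1
    exact (Nat.eq_of_mul_eq_mul_right hp.out.pos h1).symm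
  refine ⟨k, hk2, hk, hW2, hI1, ?_⟩
  have h1 := card_succ hp2 hG hc (k - 2)
  rw [show k - 2 + 1 = k - 1 by omega, hW2] at h1
  rcases hval (k - 2) with h | h | h
  · exact absurd h (hne1 _ (by omega))
  · right
    rw [h] at h1
    have h2 : p ^ (m - 1) = p ^ (m - 2) * p := by rw [← pow_succ]; congr 1; omega
    rw [h2] at h1
    have h3' : Nat.card (W hp2 hG hc (k - 2)) = p ^ (m - 2) := (Nat.eq_of_mul_eq_mul_right hp.out.pos h1).symm
    have hk3 : 3 ≤ k := by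
      by_contra hcon
      have h4 : k - 2 = 0 := by omega
      rw [h4, W_zero, card_bot] at h3'
      have h5 : p ^ (m - 2) = p ^ 0 := by rw [pow_zero]; exact h3'.symm
      have h6 := Nat.pow_right_injective hp.out.two_le h5
      omega
    refine ⟨hk3, ?_⟩
    have h4 := card_succ hp2 hG hc (k - 3)
    rw [show k - 3 + 1 = k - 2 by omega, h3'] at h4
    rcases hval (k - 3) with h' | h' | h'
    · exact absurd h' (hne1 _ (by omega))
    · rw [h'] at h4
      have h5 : p ^ (m - 2) = p ^ (m - 3) * p := by rw [← pow_succ]; congr 1; omega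
      rw [h5] at h4
      exact (Nat.eq_of_mul_eq_mul_right hp.out.pos h4).symm
    · have h5 := hfull _ h'
      rw [show k - 3 + 1 = k - 2 by omega, h3'] at h5
      have h6 := Nat.pow_right_injective hp.out.two_le h5
      omega
  · left
    rw [h] at h1
    have h2 : p ^ (m - 1) = p ^ (m - 3) * p ^ 2 := by rw [← pow_add]; congr 1; omega
    rw [h2] at h1
    exact (Nat.eq_of_mul_eq_mul_right (pow_pos hp.out.pos 2) h1).symm

end Cfsg.Agent.Lib.H17Pc
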