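import Mathlib

/-! Groups generated by `x, y, z` with `y x = x y w`, `z x = x y ^ ε z`, `w` central. -/

set_option autoImplicit false

namespace Cfsg.Agent.Lib.H17Pc

open Subgroup

structure Fam {G : Type*} [Group G] (x y z w : G) (ε : ℕ) : Prop where
  yz : Commute y z
  wx : Commute w x
  wy : Commute w y
  wz : Commute w z
  yx : y * x = x * y * w
  zx : z * x = x * (y ^ ε * z)

namespace Fam

variable {G : Type*} [Group G] {x y z w : G} {ε : ℕ} (h : Fam x y z w ε)

include h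

theorem y_pow_x (j : ℕ) : y ^ j * x = x * (y ^ j * w ^ j) := by
  induction j with
  | zero => simp
  | succ j ih =>
    have e1 : w ^ j * (y * w) = y * w * w ^ j := by
      rw [← mul_assoc, (h.wy.pow_left j).eq]
      rw [mul_assoc, mul_assoc, ← pow_succ, ← pow_succ']
    calc y ^ (j + 1) * x = y ^ j * (y * x) := by rw [pow_succ, mul_assoc]
      _ = (y ^ j * x) * (y * w) := by rw [h.yx]; simp only [mul_assoc]
      _ = x * y ^ j * (w ^ j * (y * w)) := by rw [ih]; simp only [mul_assoc]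
      _ = x * (y ^ (j + 1) * w ^ (j + 1)) := by
        rw [e1, pow_succ, pow_succ' w]; simp only [mul_assoc]

theorem y_pow_x_pow (j i : ℕ) : y ^ j * x ^ i = x ^ i * (y ^ j * w ^ (i * j)) := by
  induction i with
  | zero => simp
  | succ i ih =>
    have e1 : w ^ (i * j) * x = x * w ^ (i * j) := (h.wx.pow_left _).eq
    calc y ^ j * x ^ (i + 1) = (y ^ j * x ^ i) * x := by rw [pow_succ, mul_assoc]
      _ = x ^ i * (y ^ j * (w ^ (i * j) * x)) := by rw [ih]; simp only [mul_assoc]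
      _ = x ^ i * ((y ^ j * x) * w ^ (i * j)) := by rw [e1]; simp only [mul_assoc]
      _ = x ^ (i + 1) * (y ^ j * (w ^ j * w ^ (i * j))) := by
        rw [h.y_pow_x, pow_succ]; simp only [mul_assoc]
      _ = _ := by rw [← pow_add]; congr 3; ring

theorem z_x_pow (i : ℕ) : z * x ^ i = x ^ i * (y ^ (ε * i) * z * w ^ (ε * i.choose 2)) := by
  induction i with
  | zero => simp
  | succ i ih =>
    have e1 : w ^ (ε * i.choose 2) * x = x * w ^ (ε * i.choose 2) := (h.wx.pow_left _).eq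
    have e2 : z * x = x * (y ^ ε * z) := h.zx
    have e3 : w ^ (ε * i) * y ^ ε = y ^ ε * w ^ (ε * i) := (h.wy.pow_pow _ _).eq
    have e4 : w ^ (ε * i) * z = z * w ^ (ε * i) := (h.wz.pow_left _).eq
    calc z * x ^ (i + 1) = (z * x ^ i) * x := by rw [pow_succ, mul_assoc]
      _ = x ^ i * (y ^ (ε * i) * (z * (w ^ (ε * i.choose 2) * x))) := by rw [ih]; simp only [mul_assoc]
      _ = x ^ i * (y ^ (ε * i) * ((z * x) * w ^ (ε * i.choose 2))) := by rw [e1]; simp only [mul_assoc]
      _ = x ^ i * ((y ^ (ε * i) * x) * (y ^ ε * z * w ^ (ε * i.choose 2))) := by rw [e2]; simp only [mul_assoc]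
      _ = x ^ (i + 1) * (y ^ (ε * i) * (w ^ (ε * i) * y ^ ε) * z * w ^ (ε * i.choose 2)) := by
        rw [h.y_pow_x, pow_succ]; simp only [mul_assoc]
      _ = x ^ (i + 1) * (y ^ (ε * i) * y ^ ε * (w ^ (ε * i) * z) * w ^ (ε * i.choose 2)) := by
        rw [e3]; simp only [mul_assoc]
      _ = x ^ (i + 1) * ((y ^ (ε * i) * y ^ ε) * z * (w ^ (ε * i) * w ^ (ε * i.choose 2))) := by
        rw [e4]; simp only [mul_assoc]
      _ = _ := by
        rw [← pow_add, ← pow_add, Nat.choose_succ_left i 2 (by norm_num)]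
        norm_num
        congr 3
        ring

theorem z_pow_x_pow (k i : ℕ) : z ^ k * x ^ i = x ^ i * (y ^ (ε * i * k) * z ^ k * w ^ (ε * k * i.choose 2)) := by
  induction k with
  | zero => simp
  | succ k ih =>
    have e1 : Commute (y ^ (ε * i)) z := h.yz.pow_left _
    have e2 : Commute (w ^ (ε * i.choose 2)) (y ^ (ε * i * k) * z ^ k) :=
      (h.wy.pow_pow _ _).mul_right (h.wz.pow_pow _ _)
    have e3 : Commute z (y ^ (ε * i * k)) := (h.yz.pow_left _).symm
    calc z ^ (k + 1) * x ^ i = z * (z ^ k * x ^ i) := by rw [pow_succ', mul_assoc]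
      _ = (z * x ^ i) * (y ^ (ε * i * k) * z ^ k * w ^ (ε * k * i.choose 2)) := by rw [ih]; simp only [mul_assoc]
      _ = x ^ i * (y ^ (ε * i) * z * (w ^ (ε * i.choose 2) * (y ^ (ε * i * k) * z ^ k)) *
            w ^ (ε * k * i.choose 2)) := by rw [h.z_x_pow]; simp only [mul_assoc]
      _ = x ^ i * (y ^ (ε * i) * (z * y ^ (ε * i * k)) * z ^ k * (w ^ (ε * i.choose 2) *
            w ^ (ε * k * i.choose 2))) := by rw [e2.eq]; simp only [mul_assoc]
      _ = x ^ i * ((y ^ (ε * i) * y ^ (ε * i * k)) * (z * z ^ k) * (w ^ (ε * i.choose 2) *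
            w ^ (ε * k * i.choose 2))) := by rw [e3.eq]; simp only [mul_assoc]
      _ = _ := by
        rw [← pow_add, ← pow_add, ← pow_succ']
        congr 3
        · congr 1; ring
        · ring

/-- the multiplication rule -/
theorem mul_rule (i j k l i' j' k' l' : ℕ) :
    (x ^ i * y ^ j * z ^ k * w ^ l) * (x ^ i' * y ^ j' * z ^ k' * w ^ l') =
      x ^ (i + i') * y ^ (j + ε * i' * k + j') * z ^ (k + k') *
        w ^ (l + l' + i' * j + ε * k * i'.choose 2) := by
  have cw : ∀ n a b c : ℕ, w ^ n * (x ^ a * y ^ b * z ^ c) = x ^ a * y ^ b * z ^ c * w ^ n := fun n a b c =>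
    (((h.wx.pow_pow n a).mul_right (h.wy.pow_pow n b)).mul_right (h.wz.pow_pow n c)).eq
  have cy : ∀ n b : ℕ, w ^ n * y ^ b = y ^ b * w ^ n := fun n b => (h.wy.pow_pow n b).eq
  have cz : ∀ n b : ℕ, w ^ n * z ^ b = z ^ b * w ^ n := fun n b => (h.wz.pow_pow n b).eq
  have czy : ∀ n b : ℕ, z ^ n * y ^ b = y ^ b * z ^ n := fun n b => (h.yz.pow_pow b n).symm.eq
  calc (x ^ i * y ^ j * z ^ k * w ^ l) * (x ^ i' * y ^ j' * z ^ k' * w ^ l')
      = x ^ i * y ^ j * z ^ k * (w ^ l * (x ^ i' * y ^ j' * z ^ k')) * w ^ l' := by simp only [mul_assoc]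
    _ = x ^ i * y ^ j * (z ^ k * x ^ i') * (y ^ j' * z ^ k') * (w ^ l * w ^ l') := by
      rw [cw]; simp only [mul_assoc]
    _ = x ^ i * (y ^ j * x ^ i') * (y ^ (ε * i' * k) * z ^ k * (w ^ (ε * k * i'.choose 2) * (y ^ j' * z ^ k'))) *
        (w ^ l * w ^ l') := by
      rw [h.z_pow_x_pow]; simp only [mul_assoc]
    _ = x ^ i * x ^ i' * y ^ j * (w ^ (i' * j) * (y ^ (ε * i' * k) * z ^ k * (y ^ j' * z ^ k'))) *
        (w ^ (ε * k * i'.choose 2) * (w ^ l * w ^ l')) := by
      rw [h.y_pow_x_pow, show w ^ (ε * k * i'.choose 2) * (y ^ j' * z ^ k') =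
        y ^ j' * z ^ k' * w ^ (ε * k * i'.choose 2) by
          rw [← mul_assoc, cy, mul_assoc, cz, ← mul_assoc]]
      simp only [mul_assoc]
    _ = x ^ i * x ^ i' * y ^ j * (y ^ (ε * i' * k) * (z ^ k * y ^ j') * z ^ k') *
        (w ^ (i' * j) * (w ^ (ε * k * i'.choose 2) * (w ^ l * w ^ l'))) := by
      rw [show w ^ (i' * j) * (y ^ (ε * i' * k) * z ^ k * (y ^ j' * z ^ k')) =
        (y ^ (ε * i' * k) * z ^ k * (y ^ j' * z ^ k')) * w ^ (i' * j) from
        ((((h.wy.pow_pow _ _).mul_right (h.wz.pow_pow _ _)).mul_right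
          ((h.wy.pow_pow _ _).mul_right (h.wz.pow_pow _ _)))).eq]
      simp only [mul_assoc]
    _ = (x ^ i * x ^ i') * (y ^ j * y ^ (ε * i' * k) * y ^ j') * (z ^ k * z ^ k') *
        (w ^ (i' * j) * (w ^ (ε * k * i'.choose 2) * (w ^ l * w ^ l'))) := by
      rw [czy]; simp only [mul_assoc]
    _ = _ := by
      simp only [← pow_add]
      congr 2
      ring

/-- powers -/
theorem pow_rule (i j k l n : ℕ) : (x ^ i * y ^ j * z ^ k * w ^ l) ^ n =
    x ^ (n * i) * y ^ (n * j + ε * n.choose 2 * (i * k)) * z ^ (n * k) *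
      w ^ (n * l + n.choose 2 * (i * j) + ε * n.choose 3 * (i ^ 2 * k) + ε * n.choose 2 * (k * i.choose 2)) := by
  induction n with
  | zero => simp
  | succ n ih =>
    rw [pow_succ, ih, h.mul_rule]
    have c2 : (n + 1).choose 2 = n.choose 2 + n := by
      rw [Nat.choose_succ_left n 2 (by norm_num)]; norm_num; ring
    have c3 : (n + 1).choose 3 = n.choose 3 + n.choose 2 := by
      rw [Nat.choose_succ_left n 3 (by norm_num)]; norm_num; ring
    rw [c2, c3]
    congr 2
    · congr 1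
      · congr 1; ring
      · congr 1; ring
    · congr 1; ring
    · ring

/-- every element has the normal form -/
theorem normal_form [Finite G] (hgen : closure ({x, y, z} : Set G) = ⊤) (g : G) :
    ∃ i j k l : ℕ, g = x ^ i * y ^ j * z ^ k * w ^ l := by
  let M : Submonoid G :=
    { carrier := {g | ∃ i j k l : ℕ, g = x ^ i * y ^ j * z ^ k * w ^ l}
      one_mem' := ⟨0, 0, 0, 0, by simp⟩
      mul_mem' := by
        rintro _ _ ⟨i, j, k, l, rfl⟩ ⟨i', j', k', l', rfl⟩
        exact ⟨_, _, _, _, h.mul_rule i j k l i' j' k' l'⟩ }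
  have hg : g ∈ closure ({x, y, z} : Set G) := by rw [hgen]; exact mem_top g
  have : g ∈ M := by
    induction hg using closure_induction with
    | mem u hu =>
      rcases hu with rfl | rfl | rfl
      · exact ⟨1, 0, 0, 0, by simp⟩
      · exact ⟨0, 1, 0, 0, by simp⟩
      · exact ⟨0, 0, 1, 0, by simp⟩
    | one => exact M.one_mem
    | mul a b _ _ ha hb => exact M.mul_mem ha hb
    | inv a _ ha =>
      have h1 : a⁻¹ = a ^ (orderOf a - 1) := by
        rw [inv_eq_iff_mul_eq_one, ← pow_succ', Nat.sub_add_cancel (orderOf_pos a), pow_orderOf_eq_one]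
      rw [h1]
      exact M.pow_mem ha _
  exact this

end Fam

end Cfsg.Agent.Lib.H17Pc
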