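import Cfsg.Agent.Lib.H17Pc1
import Cfsg.Agent.Lib.RankTwoOdd
import Cfsg.Agent.Lib.NormalRankTwoIn
import Cfsg.Agent.Lib.MaxClassNormal
import Cfsg.Agent.Lib.MaxClassTwo

/-! `p`-groups of rank two and maximal class, `p` odd, order `p ^ n` with `n` even. -/

set_option autoImplicit false
set_option linter.unusedSectionVars false

open Subgroup
open scoped commutatorElement

namespace Cfsg.Agent.Lib.H17Pc

open Cfsg Cfsg.Agent.Lib Cfsg.Agent.Lib.AgemoMeta Cfsg.Agent.Lib.RankTwoOdd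

universe u

variable {G : Type u} [Group G] [Finite G] {p : ℕ} [hp : Fact p.Prime]

theorem exists_su (hp2 : p ≠ 2) (hGp : IsPGroup p G) (hrk : PRankLE p 2 G) (hm : ¬ IsMetacyclic G) :
    ∃ E C F e, Su G p E C F e := by
  classical
  have hncyc : ¬ IsCyclic G := by
    intro hc
    apply hm
    refine ⟨⊥, inferInstance, inferInstance, ?_⟩
    exact isCyclic_of_surjective (QuotientGroup.mk' (⊥ : Subgroup G)) (QuotientGroup.mk'_surjective _)
  have hncyc' : ¬ IsCyclic (⊤ : Subgroup G) := by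
    intro hh
    exact hncyc (isCyclic_of_surjective (topEquiv (G := G)).toMonoidHom topEquiv.surjective)
  obtain ⟨E, -, hEn, hEe, hEc⟩ := NormalRankTwoIn.exists_normal_in hp2 hGp ⊤ hncyc'
  have hC : centralizer (E : Set G) ≠ ⊤ := by
    intro hC
    apply hm
    have hcen : ∀ x ∈ E, ∀ g : G, Commute x g := by
      intro x hx g
      have : g ∈ centralizer (E : Set G) := by rw [hC]; trivial
      exact mem_centralizer_iff.mp this x hx
    have homega : ∀ x : G, x ^ p = 1 → x ∈ E := by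
      intro x hxp
      by_contra hxE
      have hx : x ∈ centralizer (E : Set G) := by rw [hC]; trivial
      have h1 := PGroupOdd.card_sup_zpowers hEn hxE (by rw [hxp]; exact one_mem _)
      have h2 := PGroupOdd.isMulCommutative_sup_zpowers hEe.1 hx
      have h3 := hrk (E ⊔ zpowers x) h2 (by
        intro y hy
        rw [mem_sup_of_normal_left] at hy
        obtain ⟨a, ha, _, ⟨k, rfl⟩, rfl⟩ := hy
        have h4 : Commute a (x ^ k) := hcen a ha _
        simp only
        rw [h4.mul_pow, hEe.2 a ha, one_mul, ← zpow_natCast, ← zpow_mul, mul_comm, zpow_mul, zpow_natCast, hxp,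
          one_zpow])
      rw [h1, hEc] at h3
      have h4 := hp.out.one_lt
      have h5 : 0 < p ^ 2 := by positivity
      nlinarith
    apply metacyclic hp2 hGp
    set U := closure (Set.range fun x : G => x ^ p) with hU
    have hcard : Nat.card G ≤ Nat.card E * Nat.card U := by
      rw [← Nat.card_prod]
      have hch : ∀ s : Set.range fun x : G => x ^ p, ∃ c : G, c ^ p = s := fun s => s.2
      choose r hr using hch
      let f : G → E × U := fun c =>
        (⟨(r ⟨c ^ p, c, rfl⟩)⁻¹ * c, homega _ (pcentral hp2 hGp (C := ⊤)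
          (fun a _ hap b _ => hcen a (homega a hap) b) (mem_top _) (mem_top _) (hr ⟨c ^ p, c, rfl⟩))⟩,
          ⟨c ^ p, Subgroup.subset_closure ⟨c, rfl⟩⟩)
      apply Nat.card_le_card_of_injective f
      intro a b hab
      have h1 : a ^ p = b ^ p := congrArg (fun q => ((Prod.snd q : U) : G)) hab
      have h2 : (r ⟨a ^ p, a, rfl⟩)⁻¹ * a = (r ⟨b ^ p, b, rfl⟩)⁻¹ * b :=
        congrArg (fun q => ((Prod.fst q : E) : G)) hab
      have h3 : (⟨a ^ p, a, rfl⟩ : Set.range fun x : G => x ^ p) = ⟨b ^ p, b, rfl⟩ := Subtype.ext h1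
      rw [h3] at h2
      exact mul_left_cancel h2
    rw [← U.card_mul_index, hEc, mul_comm (p ^ 2)] at hcard
    exact Nat.le_of_mul_le_mul_left hcard Nat.card_pos
  obtain ⟨C, F, e, h⟩ := exists_setup hp2 hGp hrk hEn hEe hEc hC
  exact ⟨E, C, F, e, h⟩

variable {E C F : Subgroup G} {e : G}

theorem su_hC (h : Su G p E C F e) : IsPGroup p C := h.hG.to_subgroup C

theorem su_hc (h : Su G p E C F e) : ∀ x ∈ C, x ^ p = 1 → ∀ y ∈ C, Commute x y :=
  fun _ hx hxp _ hy => h.EcC (h.omega _ hx hxp) hy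

/-- the subgroups `W j` -/
abbrev V (h : Su G p E C F e) (j : ℕ) : Subgroup G := W h.hp2 (su_hC h) (su_hc h) j

theorem V_one (h : Su G p E C F e) : V h 1 = E := by
  ext x
  show x ∈ C ∧ x ^ p ^ 1 = 1 ↔ x ∈ E
  rw [pow_one]
  exact ⟨fun hx => h.omega x hx.1 hx.2, fun hx => ⟨h.EC hx, h.Eexp x hx⟩⟩

theorem V_normal (h : Su G p E C F e) (j : ℕ) : (V h j).Normal :=
  ⟨fun x hx g => W_conj h.hp2 (su_hC h) (su_hc h) (N := ⊤) (fun g _ x hx => h.Cn.conj_mem x hx g) j g (mem_top g) x hx⟩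

theorem index_of_card {n a b : ℕ} (hn : Nat.card G = p ^ n) {H : Subgroup G} (hH : Nat.card H = p ^ a) (hab : a + b = n) :
    H.index = p ^ b := by
  have h1 := H.card_mul_index
  rw [hn, hH, ← hab, pow_add] at h1
  exact Nat.eq_of_mul_eq_mul_left (pow_pos hp.out.pos a) h1

/-- a layer of order `p` consists of central elements -/
theorem I_central (h : Su G p E C F e) {j : ℕ} (hj : Nat.card (I h.hp2 (su_hC h) (su_hc h) j) = p) :
    ∀ x ∈ I h.hp2 (su_hC h) (su_hc h) j, x ∈ F := by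
  set J := I h.hp2 (su_hC h) (su_hc h) j with hJ
  have hconj : ∀ g : G, ∀ x ∈ J, g * x * g⁻¹ ∈ J := by
    rintro g _ ⟨w, hw, rfl⟩
    exact ⟨g * w * g⁻¹, (V_normal h (j + 1)).conj_mem w hw g, by rw [conj_pow]⟩
  letI : MulAction G J :=
    { smul := fun g x => ⟨g * x * g⁻¹, hconj g x x.2⟩
      one_smul := fun x => Subtype.ext (by show 1 * (x : G) * 1⁻¹ = x; simp)
      mul_smul := fun a b x => Subtype.ext (by
        show a * b * (x : G) * (a * b)⁻¹ = a * (b * x * b⁻¹) * a⁻¹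
        group) }
  have h1 := h.hG.card_modEq_card_fixedPoints J
  rw [hj] at h1
  have hone : (1 : G) ∈ J := ⟨1, one_mem _, one_pow _⟩
  have h2 : p ∣ Nat.card (MulAction.fixedPoints G J) := by
    have := h1.symm
    exact (Nat.modEq_zero_iff_dvd.1 (this.trans (by rw [Nat.ModEq, Nat.mod_self, Nat.zero_mod])))
  have hne : Nonempty (MulAction.fixedPoints G J) := ⟨⟨⟨1, hone⟩, fun g => Subtype.ext (by
    show g * 1 * g⁻¹ = 1
    simp)⟩⟩
  have h3 : p ≤ Nat.card (MulAction.fixedPoints G J) := Nat.le_of_dvd Nat.card_pos h2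
  have h4 : MulAction.fixedPoints G J = Set.univ := by
    apply Set.eq_of_subset_of_ncard_le (Set.subset_univ _) _ (Set.toFinite _)
    rw [Set.ncard_univ, hj, ← Nat.card_coe_set_eq]
    exact h3
  intro x hx
  have h5 : (⟨x, hx⟩ : J) ∈ MulAction.fixedPoints G J := by rw [h4]; trivial
  rw [h.Fdef]
  refine ⟨?_, mem_center_iff.2 fun g => ?_⟩
  · have := I_sub h.hp2 (su_hC h) (su_hc h) j hx
    rw [← V_one h]; exact this
  · have h6 : g * x * g⁻¹ = x := congrArg Subtype.val (h5 g)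
    exact mul_inv_eq_iff_eq_mul.1 h6

/-- the structure of `C` when `n` is even -/
theorem max_data (h : Su G p E C F e) {n : ℕ} (hn : Nat.card G = p ^ n) (heven : Even n) (h4 : 4 ≤ n) :
    ∃ k, 2 ≤ k ∧ V h k = C ∧ Nat.card (V h (k - 1)) = p ^ (n - 2) ∧ (∀ c ∈ C, c ^ p ^ (k - 1) ∈ F) ∧
      (Nat.card (V h (k - 2)) = p ^ (n - 4) ∨ (3 ≤ k ∧ Nat.card (V h (k - 3)) = p ^ (n - 4))) := by
  have hCc : Nat.card C = p ^ (n - 1) := by
    have h1 := C.card_mul_index
    rw [h.index_C, hn] at h1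
    have h2 : p ^ n = p ^ (n - 1) * p := by rw [← pow_succ]; congr 1; omega
    rw [h2] at h1
    exact Nat.eq_of_mul_eq_mul_right hp.out.pos h1
  have hodd : Odd (n - 1) := by
    obtain ⟨t, ht⟩ := heven
    exact ⟨t - 1, by omega⟩
  obtain ⟨k, hk2, hk, h1, h2, h3⟩ := layers h.hp2 (su_hC h) (su_hc h) (by
    have := V_one h
    rw [show W h.hp2 (su_hC h) (su_hc h) 1 = E from this]
    exact h.Ecard) hCc hodd (by omega)
  refine ⟨k, hk2, hk, by rw [show n - 2 = n - 1 - 1 by omega]; exact h1, fun c hc => ?_,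
    by rw [show n - 4 = n - 1 - 3 by omega]; exact h3⟩
  apply I_central h h2
  refine ⟨c, ?_, rfl⟩
  rw [show k - 1 + 1 = k by omega, hk]
  exact hc

end Cfsg.Agent.Lib.H17Pc
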