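import Cfsg.Agent.Lib.H17Pc4

/-! `p`-groups of rank two and maximal class, continued: automorphisms; no quotient `C₃ ≀ C₃`. -/

set_option autoImplicit false
set_option linter.unusedSectionVars false

open Subgroup
open scoped commutatorElement

namespace Cfsg.Agent.Lib.H17Pc

open Cfsg Cfsg.Agent.Lib Cfsg.Agent.Lib.AgemoMeta Cfsg.Agent.Lib.RankTwoOdd

universe u

variable {G : Type u} [Group G] [Finite G] {p : ℕ} [hp : Fact p.Prime] {E C F : Subgroup G} {e : G}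

theorem eq_lcs {n : ℕ} (hn : Nat.card G = p ^ n) (h4 : 4 ≤ n) (hcl : Group.nilpotencyClass G = n - 1)
    (N : Subgroup G) (hN : N.Normal) {a r : ℕ} (hc : Nat.card N = p ^ a) (har : a + r = n) (hr : 2 ≤ r) :
    N = (⊤ : Subgroup G).lowerCentralSeries (r - 1) :=
  MaxClassNormal.eq_lcs_of_normal (by omega) hn hcl N hr (index_of_card hn hc har)

theorem eq_of_normal {n : ℕ} (hn : Nat.card G = p ^ n) (h4 : 4 ≤ n) (hcl : Group.nilpotencyClass G = n - 1)
    (N M : Subgroup G) (hN : N.Normal) (hM : M.Normal) {a : ℕ} (hNc : Nat.card N = p ^ a) (hMc : Nat.card M = p ^ a)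
    (ha : a + 2 ≤ n) : N = M := by
  rw [eq_lcs hn h4 hcl N hN hNc (show a + (n - a) = n by omega) (by omega),
    eq_lcs hn h4 hcl M hM hMc (show a + (n - a) = n by omega) (by omega)]

/-- automorphisms trivial on the centre -/
theorem d1 (h : Su G p E C F e) {n : ℕ} (hn : Nat.card G = p ^ n) (heven : Even n) (h4 : 4 ≤ n)
    (hcl : Group.nilpotencyClass G = n - 1) :
    ∃ D : Subgroup G, D.Normal ∧ Nat.card D = p ^ (n - 2) ∧ D ≤ C ∧
      (∀ φ : MulAut G, (∀ x ∈ F, φ x = x) → ∀ c ∈ C, c⁻¹ * φ c ∈ D) ∧ ∀ φ : MulAut G, ∀ d ∈ D, φ d ∈ D := by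
  obtain ⟨k, hk2, hk, h1, h2, -⟩ := max_data h hn heven h4
  have hmap : ∀ (N : Subgroup G) (φ : MulAut G), N.Normal → ∀ a, Nat.card N = p ^ a → a + 2 ≤ n →
      N.map φ.toMonoidHom = N := by
    intro N φ hN a ha ha2
    refine eq_of_normal hn h4 hcl _ _ (hN.map _ φ.surjective) hN ?_ ha ha2
    rw [← ha]
    exact card_map_of_injective φ.injective
  have hE : ∀ φ : MulAut G, ∀ x ∈ E, φ x ∈ E := by
    intro φ x hx
    have := hmap E φ h.En 2 h.Ecard (by omega)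
    rw [← this]
    exact mem_map_of_mem _ hx
  have hE' : ∀ φ : MulAut G, ∀ x ∈ E, ∃ y ∈ E, φ y = x := by
    intro φ x hx
    refine ⟨φ⁻¹ x, hE φ⁻¹ x hx, ?_⟩
    exact MulAut.apply_inv_self _ _ _
  have hC : ∀ φ : MulAut G, ∀ c ∈ C, φ c ∈ C := by
    intro φ c hc
    rw [h.Cdef, mem_centralizer_iff]
    intro x hx
    obtain ⟨y, hy, rfl⟩ := hE' φ x hx
    rw [← map_mul, ← map_mul, (h.EcC hy hc).eq]
  refine ⟨V h (k - 1), V_normal h _, h1, W_le _ _ _ _, fun φ hφ c hc => ?_, fun φ d hd => ?_⟩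
  · refine ⟨mul_mem (inv_mem hc) (hC φ c hc), ?_⟩
    rw [← pow_iff' h.hp2 (su_hC h) (su_hc h) (k - 1) hc (hC φ c hc), ← map_pow, hφ _ (h2 c hc)]
  · have := hmap (V h (k - 1)) φ (V_normal h _) (n - 2) h1 (by omega)
    rw [← this]
    exact mem_map_of_mem _ hd

/-! ### The Sylow `3`-subgroup of `S₉` -/

section nine

/-- the base group inside `Perm (Fin 3 × ZMod 3)` -/
def base : Multiplicative (Fin 3 → ZMod 3) →* Equiv.Perm (Fin 3 × ZMod 3) where
  toFun v :=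
    { toFun := fun x => (x.1, (Multiplicative.toAdd v) x.1 + x.2)
      invFun := fun x => (x.1, -(Multiplicative.toAdd v) x.1 + x.2)
      left_inv := fun x => by simp
      right_inv := fun x => by simp }
  map_one' := by
    ext x : 1
    simp
  map_mul' v w := by
    ext x : 1
    simp [add_assoc]

theorem base_injective : Function.Injective base := by
  intro v w hvw
  apply Multiplicative.toAdd.injective
  funext i
  have h1 : base v (i, 0) = base w (i, 0) := by rw [hvw]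
  have h2 : ((i, Multiplicative.toAdd v i + 0) : Fin 3 × ZMod 3) = (i, Multiplicative.toAdd w i + 0) := h1
  simpa using congrArg Prod.snd h2

theorem exists_J0 : ∃ J : Subgroup (Equiv.Perm (Fin (3 ^ 2))), Nat.card J = 3 ^ 3 ∧
    (∀ a ∈ J, ∀ b ∈ J, a * b = b * a) ∧ ∀ a ∈ J, a ^ 3 = 1 := by
  have e : Fin 3 × ZMod 3 ≃ Fin (3 ^ 2) := Fintype.equivFinOfCardEq (by simp [Fintype.card_prod, ZMod.card])
  let f : Multiplicative (Fin 3 → ZMod 3) →* Equiv.Perm (Fin (3 ^ 2)) := e.permCongrHom.toMonoidHom.comp base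
  have hf : Function.Injective f := e.permCongrHom.injective.comp base_injective
  refine ⟨f.range, ?_, ?_, ?_⟩
  · rw [Nat.card_congr (f.ofInjective hf).symm.toEquiv]
    show Nat.card (Fin 3 → ZMod 3) = 3 ^ 3
    rw [Nat.card_fun]
    simp
  · rintro _ ⟨a, rfl⟩ _ ⟨b, rfl⟩
    rw [← map_mul, ← map_mul, mul_comm]
  · rintro _ ⟨a, rfl⟩
    rw [← map_pow]
    have : a ^ 3 = 1 := by
      apply Multiplicative.toAdd.injective
      rw [toAdd_pow, toAdd_one]
      funext i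
      show (3 : ℕ) • (Multiplicative.toAdd a i) = 0
      generalize Multiplicative.toAdd a i = z
      revert z; decide
    rw [this, map_one]

theorem exists_J (Wy : Sylow 3 (Equiv.Perm (Fin (3 ^ 2)))) : ∃ J : Subgroup (Equiv.Perm (Fin (3 ^ 2))),
    J ≤ (Wy : Subgroup (Equiv.Perm (Fin (3 ^ 2)))) ∧ Nat.card J = 3 ^ 3 ∧
    (∀ a ∈ J, ∀ b ∈ J, a * b = b * a) ∧ ∀ a ∈ J, a ^ 3 = 1 := by
  obtain ⟨J, h1, h2, h3⟩ := exists_J0
  have hJ : IsPGroup 3 J := IsPGroup.of_card h1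
  obtain ⟨W', hW'⟩ := hJ.exists_le_sylow
  obtain ⟨g, hg⟩ := MulAction.exists_smul_eq (Equiv.Perm (Fin (3 ^ 2))) W' Wy
  refine ⟨J.map (MulAut.conj g).toMonoidHom, ?_, ?_, ?_, ?_⟩
  · rw [← hg, Sylow.coe_subgroup_smul]
    rintro _ ⟨x, hx, rfl⟩
    exact Subgroup.smul_mem_pointwise_smul _ _ _ (hW' hx)
  · rw [card_map_of_injective (MulAut.conj g).injective, h1]
  · rintro _ ⟨a, ha, rfl⟩ _ ⟨b, hb, rfl⟩
    rw [← map_mul, ← map_mul, h2 a ha b hb]
  · rintro _ ⟨a, ha, rfl⟩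
    rw [← map_pow, h3 a ha, map_one]

theorem card_W (Wy : Sylow 3 (Equiv.Perm (Fin (3 ^ 2)))) :
    Nat.card (Wy : Subgroup (Equiv.Perm (Fin (3 ^ 2)))) = 3 ^ 4 := by
  rw [Sylow.card_eq_multiplicity, Nat.card_eq_fintype_card, Fintype.card_perm, Fintype.card_fin]
  congr 1
  have h1 : (3 ^ 2).factorial = 3 ^ 4 * 4480 := by decide
  rw [h1, Nat.factorization_mul (by norm_num) (by norm_num), Nat.Prime.factorization_pow (by norm_num)]
  simp only [Finsupp.coe_add, Pi.add_apply, Finsupp.single_eq_same]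
  rw [Nat.factorization_eq_zero_of_not_dvd (by norm_num)]

theorem pow_nine (Wy : Sylow 3 (Equiv.Perm (Fin (3 ^ 2)))) {σ : Equiv.Perm (Fin (3 ^ 2))}
    (hσ : σ ∈ (Wy : Subgroup (Equiv.Perm (Fin (3 ^ 2))))) : σ ^ 9 = 1 := by
  obtain ⟨k, hk⟩ := Wy.isPGroup' ⟨σ, hσ⟩
  have hk' : σ ^ 3 ^ k = 1 := congrArg Subtype.val hk
  ext x : 1
  have h1 : Function.minimalPeriod σ x ∣ 3 ^ k := by
    apply Function.IsPeriodicPt.minimalPeriod_dvd
    show (σ^[3 ^ k]) x = x
    rw [Equiv.Perm.iterate_eq_pow, hk']; rfl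
  have h2 : Function.minimalPeriod σ x ≤ 9 := by
    have := Function.minimalPeriod_le_card (f := σ) (x := x)
    simpa using this
  obtain ⟨i, -, hi⟩ := (Nat.dvd_prime_pow Nat.prime_three).1 h1
  have hi2 : i ≤ 2 := by
    rw [hi] at h2
    by_contra hcon
    have : 3 ^ 3 ≤ 3 ^ i := Nat.pow_le_pow_right (by norm_num) (by omega)
    omega
  have h3 : Function.minimalPeriod σ x ∣ 9 := by
    rw [hi]; exact pow_dvd_pow 3 hi2
  have h4 : Function.IsPeriodicPt σ 9 x := (Function.isPeriodicPt_iff_minimalPeriod_dvd).2 h3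
  have h5 : (σ^[9]) x = x := h4
  rw [Equiv.Perm.iterate_eq_pow] at h5
  exact h5

end nine

end Cfsg.Agent.Lib.H17Pc
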