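import Cfsg.Agent.Lib.H17Pc5

/-! `3`-groups of rank two and maximal class of order `3 ^ n`, `n` even: no quotient `C₃ ≀ C₃`. -/

set_option autoImplicit false
set_option linter.unusedSectionVars false

open Subgroup
open scoped commutatorElement

namespace Cfsg.Agent.Lib.H17Pc

open Cfsg Cfsg.Agent.Lib Cfsg.Agent.Lib.AgemoMeta Cfsg.Agent.Lib.RankTwoOdd

universe u

variable {G : Type u} [Group G] [Finite G] {E C F : Subgroup G} {e : G}

theorem d2 (h : Su G 3 E C F e) {n : ℕ} (hn : Nat.card G = 3 ^ n) (heven : Even n) (h4 : 4 ≤ n)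
    (hcl : Group.nilpotencyClass G = n - 1) (Wy : Sylow 3 (Equiv.Perm (Fin (3 ^ 2))))
    (f : G →* ↥(Wy : Subgroup (Equiv.Perm (Fin (3 ^ 2))))) (hf : Function.Surjective f) : False := by
  classical
  obtain ⟨k, hk2, hk, h1, h2, h3⟩ := max_data h hn heven h4
  have hV1 : V h (k - 1) = (⊤ : Subgroup G).lowerCentralSeries 1 :=
    eq_lcs hn h4 hcl _ (V_normal h _) h1 (show n - 2 + 2 = n by omega) le_rfl
  -- an element of `C` outside `V (k - 1)`
  have hCc : C ≠ V h (k - 1) := by
    intro hh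
    have h5 := h.index_C
    have h6 := index_of_card hn h1 (show n - 2 + 2 = n by omega)
    rw [← hh, h5] at h6
    norm_num at h6
  obtain ⟨c, hcC, hcV⟩ : ∃ c ∈ C, c ∉ V h (k - 1) := by
    by_contra hcon
    push Not at hcon
    exact hCc (le_antisymm hcon (W_le _ _ _ _))
  -- the kernel
  have hker : Nat.card f.ker = 3 ^ (n - 4) := by
    have h5 := f.ker.card_mul_index
    rw [Subgroup.index_ker, MonoidHom.range_eq_top.2 hf, card_top, card_W, hn] at h5
    have h6 : 3 ^ n = 3 ^ (n - 4) * 3 ^ 4 := by rw [← pow_add]; congr 1; omega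
    rw [h6] at h5
    exact Nat.eq_of_mul_eq_mul_right (by norm_num) h5
  have hkl : f.ker = (⊤ : Subgroup G).lowerCentralSeries 3 :=
    eq_lcs hn h4 hcl _ inferInstance hker (show n - 4 + 4 = n by omega) (by norm_num)
  -- the elementary abelian subgroup
  obtain ⟨J, hJW, hJc, hJcomm, hJexp⟩ := exists_J Wy
  let J' : Subgroup G := (J.subgroupOf (Wy : Subgroup (Equiv.Perm (Fin (3 ^ 2))))).comap f
  have hJ'mem : ∀ g, g ∈ J' ↔ ((f g : (Wy : Subgroup (Equiv.Perm (Fin (3 ^ 2))))) : Equiv.Perm (Fin (3 ^ 2))) ∈ J :=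
    fun g => Iff.rfl
  have hJi : (J.subgroupOf (Wy : Subgroup (Equiv.Perm (Fin (3 ^ 2))))).index = 3 := by
    have h5 := (J.subgroupOf (Wy : Subgroup (Equiv.Perm (Fin (3 ^ 2))))).card_mul_index
    rw [card_W, Nat.card_congr (subgroupOfEquivOfLe hJW).toEquiv, hJc] at h5
    have h6 : (3 : ℕ) ^ 4 = 3 ^ 3 * 3 := by norm_num
    rw [h6] at h5
    exact Nat.eq_of_mul_eq_mul_left (by norm_num) h5
  have hJ'i : J'.index = 3 := by
    show (comap f _).index = 3
    rw [index_comap_of_surjective _ hf, hJi]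
  have hJ'n : J'.Normal := by
    have : (Nat.card G).minFac = 3 := by
      rw [hn, Nat.pow_minFac (by omega)]; norm_num
    exact Subgroup.normal_of_index_eq_minFac_card (by rw [hJ'i, this])
  have hlcs1 : (⊤ : Subgroup G).lowerCentralSeries 1 ≤ J' := by
    have hcomm : IsMulCommutative (G ⧸ J') := by
      have : Nat.card (G ⧸ J') = 3 := hJ'i
      have hc : IsCyclic (G ⧸ J') := isCyclic_of_prime_card this
      exact hc.isMulCommutative
    rw [Subgroup.top_lowerCentralSeries_one, _root_.commutator_def, commutator_le]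
    intro a _ b _
    have h5 : ((a : G ⧸ J') * b) = b * a := hcomm.is_comm.comm _ _
    have h6 : ((⁅a, b⁆ : G) : G ⧸ J') = 1 := by
      show ((a : G ⧸ J') * b * (a : G ⧸ J')⁻¹ * (b : G ⧸ J')⁻¹) = 1
      rw [h5]; group
    exact (QuotientGroup.eq_one_iff _).1 h6
  rcases h3 with h3 | ⟨hk3, h3⟩
  · have hV2 : V h (k - 2) = f.ker :=
      eq_of_normal hn h4 hcl _ _ (V_normal h _) inferInstance h3 hker (by omega)
    -- `C ≠ J'`
    have hne : ¬ C ≤ J' := by
      intro hle
      have h5 : (c ^ 3) ∈ f.ker := by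
        rw [MonoidHom.mem_ker, map_pow]
        apply Subtype.ext
        exact hJexp _ (hle hcC)
      rw [← hV2] at h5
      apply hcV
      refine ⟨hcC, ?_⟩
      have h6 := h5.2
      rw [← pow_mul, ← pow_succ', show k - 2 + 1 = k - 1 by omega] at h6
      exact h6
    obtain ⟨d, hdC, hdJ⟩ := SetLike.not_le_iff_exists.1 hne
    -- everything commutes with `V (k - 1)` modulo the kernel
    have hCf : ∀ x ∈ C, ∀ g ∈ V h (k - 1), f x * f g = f g * f x := by
      intro x hx g hg
      have h5 : (x * g * x⁻¹) ^ 3 ^ (k - 2) = g ^ 3 ^ (k - 2) := by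
        rw [conj_pow]
        have h6 : g ^ 3 ^ (k - 2) ∈ E := by
          apply h.omega _ (pow_mem hg.1 _)
          rw [← pow_mul, ← pow_succ, show k - 2 + 1 = k - 1 by omega]
          exact hg.2
        rw [← (h.EcC h6 hx).eq]; group
      have h7 := (pow_iff' h.hp2 (su_hC h) (su_hc h) (k - 2) hg.1
        (mul_mem (mul_mem hx hg.1) (inv_mem hx))).1 h5.symm
      have h8 : g⁻¹ * (x * g * x⁻¹) ∈ V h (k - 2) :=
        ⟨mul_mem (inv_mem hg.1) (mul_mem (mul_mem hx hg.1) (inv_mem hx)), h7⟩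
      rw [hV2, MonoidHom.mem_ker] at h8
      simp only [map_mul, map_inv] at h8
      rw [inv_mul_eq_one, eq_mul_inv_iff_mul_eq] at h8
      exact h8.symm
    have hJf : ∀ x ∈ J', ∀ g ∈ V h (k - 1), f x * f g = f g * f x := by
      intro x hx g hg
      apply Subtype.ext
      exact hJcomm _ hx _ (hlcs1 (hV1 ▸ hg))
    have hall : ∀ x : G, ∀ g ∈ V h (k - 1), f x * f g = f g * f x := by
      intro x g hg
      have h5 : x ∈ J' ⊔ zpowers d := by
        have h6 : J' ⊔ zpowers d = ⊤ := by
          have h7 := PGroupOdd.card_sup_zpowers (p := 3) hJ'n hdJ (by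
            have hq : ((d ^ 3 : G) : G ⧸ J') = 1 := by
              have h8 : Nat.card (G ⧸ J') = 3 := hJ'i
              have h9 : (d : G ⧸ J') ^ Nat.card (G ⧸ J') = 1 := pow_card_eq_one'
              rw [h8] at h9
              exact h9
            exact (QuotientGroup.eq_one_iff _).1 hq)
          apply eq_top_of_card_eq
          rw [h7, ← hJ'i, mul_comm]
          exact J'.card_mul_index
        rw [h6]; exact mem_top x
      rw [mem_sup_of_normal_left] at h5
      obtain ⟨a, ha, b, ⟨i, rfl⟩, rfl⟩ := h5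
      have h6 := hJf a ha g hg
      have h7 := hCf _ (zpow_mem hdC i) g hg
      simp only [map_mul] at *
      rw [mul_assoc, h7, ← mul_assoc, h6, mul_assoc]
    -- so `γ₃ ≤ γ₄`
    have h5 : (⊤ : Subgroup G).lowerCentralSeries 2 ≤ (⊤ : Subgroup G).lowerCentralSeries 3 := by
      rw [← hkl]
      show (⊤ : Subgroup G).lowerCentralSeries (1 + 1) ≤ _
      rw [Subgroup.lowerCentralSeries_succ, ← hV1, commutator_le]
      intro g hg x _
      rw [MonoidHom.mem_ker, commutatorElement_def]
      simp only [map_mul, map_inv]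
      rw [← hall x g hg]; group
    have h6 : Nat.card ((⊤ : Subgroup G).lowerCentralSeries 2) = 3 ^ (n - 1 - 2) :=
      MaxClassNormal.card_lcs (by omega) hn hcl (by norm_num) (by omega)
    have h7 : Nat.card ((⊤ : Subgroup G).lowerCentralSeries 3) = 3 ^ (n - 1 - 3) :=
      MaxClassNormal.card_lcs (by omega) hn hcl (by norm_num) (by omega)
    have h8 := Subgroup.card_le_of_le h5
    rw [h6, h7] at h8
    have h9 := (Nat.pow_le_pow_iff_right (by norm_num : 1 < 3)).1 h8
    omega
  · have hV3 : V h (k - 3) = f.ker :=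
      eq_of_normal hn h4 hcl _ _ (V_normal h _) inferInstance h3 hker (by omega)
    have h5 : (c ^ 9) ∈ f.ker := by
      rw [MonoidHom.mem_ker, map_pow]
      apply Subtype.ext
      exact pow_nine Wy (f c).2
    rw [← hV3] at h5
    apply hcV
    refine ⟨hcC, ?_⟩
    have h6 := h5.2
    rw [show (9 : ℕ) = 3 ^ 2 by norm_num, ← pow_mul, ← pow_add, show 2 + (k - 3) = k - 1 by omega] at h6
    exact h6

end Cfsg.Agent.Lib.H17Pc
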