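import Cfsg.Agent.Lib.TwoPrimes

/-!
H1AmNum: for `m ≥ 17` there are primes `p, q` with `m < 2 p`, `p + 3 ≤ q ≤ m`.
-/

set_option autoImplicit false

namespace Cfsg.Agent.Lib.H1AmNum

theorem base_ineq (t : ℕ) : (t + 37) ^ 6 ≤ 2 ^ (t + 32) := by
  induction t with
  | zero => norm_num
  | succ t ih =>
    have h1 : (t + 1 + 37) ^ 6 ≤ 2 * (t + 37) ^ 6 := by
      have e1 : (t + 1 + 37) ^ 6 = t ^ 6 + 228 * t ^ 5 + 21660 * t ^ 4 + 1097440 * t ^ 3 + 31277040 * t ^ 2 + 475411008 * t + 3010936384 := by ring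
      have e2 : 2 * (t + 37) ^ 6 = 2 * t ^ 6 + 444 * t ^ 5 + 41070 * t ^ 4 + 2026120 * t ^ 3 + 56224830 * t ^ 2 + 832127484 * t + 5131452818 := by ring
      rw [e1, e2]
      have := Nat.zero_le (t ^ 6)
      have := Nat.zero_le (t ^ 5)
      have := Nat.zero_le (t ^ 4)
      have := Nat.zero_le (t ^ 3)
      have := Nat.zero_le (t ^ 2)
      omega
    calc (t + 1 + 37) ^ 6 ≤ 2 * (t + 37) ^ 6 := h1
      _ ≤ 2 * 2 ^ (t + 32) := Nat.mul_le_mul_left _ ih
      _ = 2 ^ (t + 1 + 32) := by ring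

theorem nat_ineq {n : ℕ} (hn : 650 ≤ n) :
    n * (2 * n) ^ (Nat.sqrt (2 * n) + 3) * 4 ^ (2 * n / 3) ≤ 4 ^ n := by
  set s := Nat.sqrt (2 * n) with hs
  have hs36 : 36 ≤ s := by
    rw [hs, Nat.le_sqrt]; omega
  have h1 : 2 * n < (s + 1) ^ 2 := by
    have := Nat.lt_succ_sqrt (2 * n)
    rw [← hs] at this
    rw [sq]; exact this
  have h2 : s * s ≤ 2 * n := Nat.sqrt_le (2 * n)
  obtain ⟨t, ht⟩ : ∃ t, s = t + 36 := ⟨s - 36, by omega⟩
  have h3 : (s + 1) ^ 6 ≤ 2 ^ (t + 32) := by
    rw [ht]; exact base_ineq t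
  have h4 : n * (2 * n) ^ (s + 3) ≤ (s + 1) ^ (2 * (s + 4)) := by
    calc n * (2 * n) ^ (s + 3) ≤ (2 * n) * (2 * n) ^ (s + 3) := Nat.mul_le_mul_right _ (by omega)
      _ = (2 * n) ^ (s + 4) := by ring
      _ ≤ ((s + 1) ^ 2) ^ (s + 4) := Nat.pow_le_pow_left h1.le _
      _ = (s + 1) ^ (2 * (s + 4)) := by rw [← pow_mul]
  -- (s+1)^(6(s+4)) ≤ 2^(s*s)
  have h5 : (s + 1) ^ (6 * (s + 4)) ≤ 2 ^ (s * s) := by
    calc (s + 1) ^ (6 * (s + 4)) = ((s + 1) ^ 6) ^ (s + 4) := by rw [← pow_mul]
      _ ≤ (2 ^ (t + 32)) ^ (s + 4) := Nat.pow_le_pow_left h3 _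
      _ = 2 ^ ((t + 32) * (s + 4)) := by rw [← pow_mul]
      _ ≤ 2 ^ (s * s) := by
        apply Nat.pow_le_pow_right (by norm_num)
        rw [ht]
        nlinarith
  have h6 : (s + 1) ^ (2 * (s + 4)) ≤ 4 ^ (n - 2 * n / 3) := by
    have h7 : ((s + 1) ^ (2 * (s + 4))) ^ 3 ≤ (4 ^ (n - 2 * n / 3)) ^ 3 := by
      calc ((s + 1) ^ (2 * (s + 4))) ^ 3 = (s + 1) ^ (6 * (s + 4)) := by
            rw [← pow_mul]; congr 1; ring
        _ ≤ 2 ^ (s * s) := h5
        _ ≤ 2 ^ (2 * n) := Nat.pow_le_pow_right (by norm_num) h2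
        _ ≤ 2 ^ (6 * (n - 2 * n / 3)) := Nat.pow_le_pow_right (by norm_num) (by omega)
        _ = (4 ^ (n - 2 * n / 3)) ^ 3 := by
          rw [show (4 : ℕ) = 2 ^ 2 by norm_num, ← pow_mul, ← pow_mul]; congr 1; ring
    exact le_of_pow_le_pow_left₀ (by norm_num) (by positivity) h7
  calc n * (2 * n) ^ (s + 3) * 4 ^ (2 * n / 3) ≤ 4 ^ (n - 2 * n / 3) * 4 ^ (2 * n / 3) :=
        Nat.mul_le_mul_right _ (h4.trans h6)
    _ = 4 ^ n := by rw [← pow_add]; congr 1; omega

open Nat in
theorem centralBinom_le (n : ℕ) (n_large : 2 < n)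
    (no : ∀ p q : ℕ, p.Prime → q.Prime → n < p → p + 3 ≤ q → 2 * n < q) :
    centralBinom n ≤ (2 * n) ^ (sqrt (2 * n) + 3) * 4 ^ (2 * n / 3) := by
  have n_pos : 0 < n := (Nat.zero_le _).trans_lt n_large
  have n2_pos : 1 ≤ 2 * n := mul_pos (zero_lt_two' ℕ) n_pos
  let f x := x ^ n.centralBinom.factorization x
  -- split the product
  have hsplit : centralBinom n = (∏ x ∈ Finset.range (2 * n / 3 + 1), f x) * ∏ x ∈ Finset.Ioc n (2 * n), f x := by
    have h0 := n.prod_pow_factorization_centralBinom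
    have hdisj : Disjoint (Finset.range (2 * n / 3 + 1)) (Finset.Ioc n (2 * n)) := by
      rw [Finset.disjoint_left]
      intro x hx hx'
      rw [Finset.mem_range] at hx
      rw [Finset.mem_Ioc] at hx'
      omega
    rw [← Finset.prod_union hdisj]
    refine (Eq.trans ?_ h0).symm
    apply Finset.prod_subset
    · intro x hx
      rw [Finset.mem_union, Finset.mem_range, Finset.mem_Ioc] at hx
      rw [Finset.mem_range]
      omega
    · intro x hx h2x
      rw [Finset.mem_range] at hx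
      rw [Finset.mem_union, Finset.mem_range, Finset.mem_Ioc] at h2x
      by_cases hp : x.Prime
      · have h1 : x ≤ n := by omega
        have h3 : 2 * n < 3 * x := by omega
        show x ^ n.centralBinom.factorization x = 1
        rw [factorization_centralBinom_of_two_mul_self_lt_three_mul n_large h1 h3, Nat.pow_zero]
      · show x ^ n.centralBinom.factorization x = 1
        rw [factorization_eq_zero_of_not_prime n.centralBinom hp, Nat.pow_zero]
  have hfle : ∀ p, f p ≤ 2 * n := fun p => pow_factorization_choose_le (mul_pos two_pos n_pos)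
  -- the second factor
  have hB : ∏ x ∈ Finset.Ioc n (2 * n), f x ≤ (2 * n) ^ 3 := by
    by_cases hex : ∃ p, p.Prime ∧ n < p ∧ p ≤ 2 * n
    · classical
      have hmin := Nat.find_spec hex
      set p := Nat.find hex with hpdef
      obtain ⟨hp, hp1, hp2⟩ := hmin
      have hmin' : ∀ x, x.Prime → n < x → x ≤ 2 * n → p ≤ x := fun x h1 h2 h3 =>
        Nat.find_min' hex ⟨h1, h2, h3⟩
      calc ∏ x ∈ Finset.Ioc n (2 * n), f x = ∏ x ∈ (Finset.Ioc n (2 * n)).filter (fun x => p ≤ x ∧ x ≤ p + 2), f x := by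
            symm
            apply Finset.prod_filter_of_ne
            intro x hx hne
            rw [Finset.mem_Ioc] at hx
            have hxp : x.Prime := by
              by_contra hc
              apply hne
              show x ^ n.centralBinom.factorization x = 1
              rw [factorization_eq_zero_of_not_prime n.centralBinom hc, Nat.pow_zero]
            refine ⟨hmin' x hxp hx.1 hx.2, ?_⟩
            by_contra hc
            have := no p x hp hxp hp1 (by omega)
            omega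
        _ ≤ ∏ x ∈ Finset.Icc p (p + 2), f x := by
            apply Finset.prod_le_prod_of_subset_of_one_le'
            · intro x hx
              rw [Finset.mem_filter] at hx
              rw [Finset.mem_Icc]
              exact hx.2
            · intro x hx _
              rw [Finset.mem_Icc] at hx
              exact Nat.one_le_pow _ _ (by omega)
        _ ≤ ∏ x ∈ Finset.Icc p (p + 2), (2 * n) := Finset.prod_le_prod' fun x _ => hfle x
        _ = (2 * n) ^ 3 := by
            rw [Finset.prod_const, Nat.card_Icc]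
            congr 1
            omega
    · rw [Finset.prod_eq_one]
      · exact Nat.one_le_pow _ _ n2_pos
      · intro q hq
        rw [Finset.mem_Ioc] at hq
        apply Nat.pow_eq_one.2
        right
        apply factorization_eq_zero_of_not_prime
        intro hqq
        exact hex ⟨q, hqq, hq.1, hq.2⟩
  have hA : ∏ x ∈ Finset.range (2 * n / 3 + 1), f x ≤ (2 * n) ^ sqrt (2 * n) * 4 ^ (2 * n / 3) := by
    let S := {p ∈ Finset.range (2 * n / 3 + 1) | Nat.Prime p}
    have : ∏ x ∈ S, f x = ∏ x ∈ Finset.range (2 * n / 3 + 1), f x := by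
      refine Finset.prod_filter_of_ne fun p _ h => ?_
      contrapose h; dsimp only [f]
      rw [factorization_eq_zero_of_not_prime n.centralBinom h, _root_.pow_zero]
    rw [← this, ← Finset.prod_filter_mul_prod_filter_not S (· ≤ sqrt (2 * n))]
    apply mul_le_mul'
    · refine (Finset.prod_le_prod' fun p _ => (?_ : f p ≤ 2 * n)).trans ?_
      · exact hfle p
      have : (Finset.Icc 1 (sqrt (2 * n))).card = sqrt (2 * n) := by rw [card_Icc, Nat.add_sub_cancel]
      rw [Finset.prod_const]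
      refine pow_right_mono₀ n2_pos ((Finset.card_le_card fun x hx => ?_).trans this.le)
      obtain ⟨h1, h2⟩ := Finset.mem_filter.1 hx
      exact Finset.mem_Icc.mpr ⟨(Finset.mem_filter.1 h1).2.one_lt.le, h2⟩
    · refine le_trans ?_ (primorial_le_four_pow (2 * n / 3))
      refine (Finset.prod_le_prod' fun p hp => (?_ : f p ≤ p)).trans ?_
      · obtain ⟨h1, h2⟩ := Finset.mem_filter.1 hp
        refine (pow_right_mono₀ (Finset.mem_filter.1 h1).2.one_lt.le ?_).trans (pow_one p).le
        exact Nat.factorization_choose_le_one (sqrt_lt'.mp <| not_le.1 h2)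
      refine Finset.prod_le_prod_of_subset_of_one_le' (Finset.filter_subset _ _) ?_
      exact fun p hp _ => (Finset.mem_filter.1 hp).2.one_lt.le
  calc centralBinom n ≤ ((2 * n) ^ sqrt (2 * n) * 4 ^ (2 * n / 3)) * (2 * n) ^ 3 := by
        rw [hsplit]; exact Nat.mul_le_mul hA hB
    _ = (2 * n) ^ (sqrt (2 * n) + 3) * 4 ^ (2 * n / 3) := by ring

theorem large (n : ℕ) (n_large : 650 ≤ n) :
    ∃ p q : ℕ, p.Prime ∧ q.Prime ∧ n < p ∧ p + 3 ≤ q ∧ q ≤ 2 * n := by
  have h1 : 4 ^ n < n * n.centralBinom :=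
    Nat.four_pow_lt_mul_centralBinom n (le_trans (by norm_num1) n_large)
  by_contra hcon
  push Not at hcon
  have h2 := centralBinom_le n (lt_of_lt_of_le (by norm_num1) n_large) (fun p q hp hq h3 h4 => hcon p q hp hq h3 h4)
  have h3 := nat_ineq n_large
  have h4 : n * n.centralBinom ≤ n * ((2 * n) ^ (Nat.sqrt (2 * n) + 3) * 4 ^ (2 * n / 3)) := Nat.mul_le_mul_left _ h2
  rw [← mul_assoc] at h4
  omega

/-- For `m ≥ 17` there are primes `p, q` with `m < 2 p`, `p + 3 ≤ q ≤ m`. -/
theorem exists_pair (m : ℕ) (hm : 17 ≤ m) : ∃ p q : ℕ, p.Prime ∧ q.Prime ∧ m < 2 * p ∧ p + 3 ≤ q ∧ q ≤ m := by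
  rcases le_or_gt 1300 m with h | h
  · obtain ⟨p, q, hp, hq, h1, h2, h3⟩ := large (m / 2) (by omega)
    exact ⟨p, q, hp, hq, by omega, h2, by omega⟩
  by_cases h1 : m < 26
  · exact ⟨13, 17, by norm_num, by norm_num, by omega, by omega, by omega⟩
  by_cases h2 : m < 38
  · exact ⟨19, 23, by norm_num, by norm_num, by omega, by omega, by omega⟩
  by_cases h3 : m < 62
  · exact ⟨31, 37, by norm_num, by norm_num, by omega, by omega, by omega⟩
  by_cases h4 : m < 106
  · exact ⟨53, 59, by norm_num, by norm_num, by omega, by omega, by omega⟩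
  by_cases h5 : m < 194
  · exact ⟨97, 103, by norm_num, by norm_num, by omega, by omega, by omega⟩
  by_cases h6 : m < 362
  · exact ⟨181, 191, by norm_num, by norm_num, by omega, by omega, by omega⟩
  by_cases h7 : m < 698
  · exact ⟨349, 353, by norm_num, by norm_num, by omega, by omega, by omega⟩
  · exact ⟨683, 691, by norm_num, by norm_num, by omega, by omega, by omega⟩

end Cfsg.Agent.Lib.H1AmNum
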