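import Cfsg.Agent.Lib.H1AmThirteen
import Cfsg.Agent.Lib.H1AmNum

/-!
H1AmFinal: the special degree 13, conclusion; the main theorem.
-/

set_option autoImplicit false

namespace Cfsg.Agent.Lib.H1AmGen

open MulAction Equiv.Perm Cfsg.Agent.Lib.GenerousP Cfsg.Agent.Lib

variable {D : Type} [Fintype D] [DecidableEq D]

theorem twelve_eq : (12 : ZMod 11) = 1 := by decide

theorem five_or {H : Subgroup (Equiv.Perm D)} (hH : H ≤ alternatingGroup D) {x : Equiv.Perm D} (hx : x ∈ H)
    (hxc : x.IsCycle) (hxp : x.support.card = 11) (hc : Fintype.card D = 13) :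
    Nat.card (PS H (x.supportᶜ : Finset D)) = 11 ∨ ∃ u ∈ PS H (x.supportᶜ : Finset D), orderOf u = 5 := by
  classical
  set K := PS H (x.supportᶜ : Finset D) with hK
  have hKout : ∀ k ∈ K, ∀ t, t ∉ x.support → k t = t := fun k hk t ht => hk.2 t (Finset.mem_compl.mpr ht)
  have hxK : x ∈ K := ⟨hx, fun t ht => Equiv.Perm.notMem_support.mp (Finset.mem_compl.mp ht)⟩
  let X : SubMulAction K D :=
    { carrier := (x.support : Set D)
      smul_mem' := by
        intro k t ht
        by_contra hcon
        have h1 : (k : Equiv.Perm D) t ∉ x.support := hcon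
        have h2 := hKout k k.2 _ h1
        have h3 := (k : Equiv.Perm D).injective h2
        rw [h3] at h1
        exact h1 ht }
  have hXcard : Nat.card X = 11 := by
    rw [show Nat.card X = (x.support : Set D).ncard from Nat.card_coe_set_eq _, Set.ncard_coe_finset, hxp]
  have hfaith : FaithfulSMul K X := by
    refine ⟨fun {k l} hkl => ?_⟩
    apply Subtype.ext
    ext t
    by_cases ht : t ∈ x.support
    · exact congrArg Subtype.val (hkl ⟨t, ht⟩)
    · rw [hKout k k.2 t ht, hKout l l.2 t ht]
  have htrans : IsPretransitive K X := by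
    refine ⟨fun a b => ?_⟩
    obtain ⟨i, hi⟩ := hxc.exists_zpow_eq (Equiv.Perm.mem_support.mp a.2) (Equiv.Perm.mem_support.mp b.2)
    exact ⟨⟨x, hxK⟩ ^ i, Subtype.ext hi⟩
  have hp : Fact (Nat.Prime 11) := ⟨by norm_num⟩
  obtain ⟨P⟩ : Nonempty (Sylow 11 K) := inferInstance
  obtain ⟨d, n, hd, hn, hN, hcard, -⟩ := PrimeDegreeNorm.card_group hXcard P
  have hd' : d ∣ 10 := hd
  by_cases h5 : 5 ∣ d
  · right
    have : Fact (Nat.Prime 5) := ⟨by norm_num⟩
    obtain ⟨u, hu⟩ := exists_prime_orderOf_dvd_card' (G := K) 5 (by
      rw [hcard]; exact Dvd.dvd.mul_right (Dvd.dvd.mul_left h5 _) _)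
    exact ⟨u, u.2, by rw [Subgroup.orderOf_coe, hu]⟩
  have hd10 : d ≤ 10 := Nat.le_of_dvd (by norm_num) hd'
  have hd12 : d = 1 ∨ d = 2 := by
    interval_cases d <;> omega
  rcases hd12 with rfl | rfl
  · left
    exact PrimeDegreeNorm.card_eq_of_normalizer hXcard P (by rw [hN])
  · exfalso
    have : Fact (Nat.Prime 2) := ⟨by norm_num⟩
    obtain ⟨v, hv⟩ := exists_prime_orderOf_dvd_card' (G := Subgroup.normalizer ((P : Subgroup K) : Set K)) 2
      (by rw [hN]; norm_num)
    obtain ⟨σ, hσP, e, hσ⟩ := PrimeDegree.exists_coord hXcard P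
    obtain ⟨a, b, ha, hab⟩ := PrimeDegreeThree.normalizer_affine hXcard P hσP e hσ v.2
    set V : K := (v : K) with hV
    have hV2 : V * V = 1 := by
      have h1 : v * v = 1 := by rw [← sq, ← hv]; exact pow_orderOf_eq_one v
      exact congrArg Subtype.val h1
    have hVo : orderOf (V : Equiv.Perm D) = 2 := by
      rw [Subgroup.orderOf_coe, hV, Subgroup.orderOf_coe, hv]
    have h2 : ∀ j : ZMod 11, a * (a * j + b) + b = j := by
      intro j
      apply e.injective
      rw [← hab, ← hab, ← mul_smul, hV2, one_smul]
    have h3 := h2 0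
    have h4 := h2 1
    have hab1 : a * a = 1 := by linear_combination h4 - h3
    have ha1 : a ≠ 1 := by
      intro h1
      have hb0 : b = 0 := by
        have h5 : b + b = 0 := by rw [h1] at h3; linear_combination h3
        have h6 : (6 : ZMod 11) * (b + b) = b := by
          have := twelve_eq
          linear_combination b * this
        rw [h5, mul_zero] at h6
        exact h6.symm
      have h5 : V = 1 := by
        apply FaithfulSMul.eq_of_smul_eq_smul (α := X)
        intro t
        obtain ⟨j, rfl⟩ := e.surjective t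
        rw [hab, h1, hb0, one_mul, add_zero, one_smul]
      rw [h5, Subgroup.coe_one, orderOf_one] at hVo
      exact absurd hVo (by norm_num)
    have ham : a = -1 := by
      have : (a - 1) * (a + 1) = 0 := by linear_combination hab1
      rcases mul_eq_zero.mp this with h | h
      · exact absurd (sub_eq_zero.mp h) ha1
      · exact eq_neg_of_add_eq_zero_left h
    -- the support of V
    have h12 := twelve_eq
    have hsupp : (V : Equiv.Perm D).support = x.support.erase (e (6 * b) : D) := by
      ext t
      rw [Equiv.Perm.mem_support, Finset.mem_erase]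
      constructor
      · intro ht
        have htx : t ∈ x.support := by
          by_contra hcon
          exact ht (hKout _ V.2 t hcon)
        refine ⟨?_, htx⟩
        rintro rfl
        apply ht
        have h5 := hab (6 * b)
        have h6 : a * (6 * b) + b = 6 * b := by rw [ham]; linear_combination (-b) * h12
        rw [h6] at h5
        exact congrArg Subtype.val h5
      · rintro ⟨h5, h6⟩ h7
        apply h5
        obtain ⟨j, hj⟩ := e.surjective ⟨t, h6⟩
        have h8 : V • e j = e j := by
          rw [hj]
          exact Subtype.ext h7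
        rw [hab] at h8
        have h9 := e.injective h8
        have h10 : j = 6 * b := by
          rw [ham] at h9
          linear_combination (-6) * h9 + (-j) * h12
        rw [← h10, hj]
    have hscard : (V : Equiv.Perm D).support.card = 10 := by
      rw [hsupp, Finset.card_erase_of_mem (e (6 * b)).2, hxp]
    obtain ⟨n', hn'⟩ := cycleType_prime_order (σ := (V : Equiv.Perm D)) (by rw [hVo]; exact Nat.prime_two)
    have hsum := sum_cycleType (V : Equiv.Perm D)
    rw [hn', hVo, Multiset.sum_replicate, hscard, smul_eq_mul] at hsum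
    have hn4 : n' = 4 := by omega
    have hsign := sign_of_cycleType (V : Equiv.Perm D)
    rw [hn', hVo, hn4, Multiset.sum_replicate, Multiset.card_replicate] at hsign
    have hs1 : sign (V : Equiv.Perm D) = 1 := hH V.2.1
    rw [hs1] at hsign
    exact absurd hsign (by decide)

theorem Dat.case13 {x y : Equiv.Perm D} (h : Dat D x y 11 13) (hc : Fintype.card D = 13) :
    ∃ d : ℕ, 5 ≤ d ∧ Nonempty (Subgroup.closure ({x, y} : Set (Equiv.Perm D)) ≃* alternatingGroup (Fin d)) := by
  classical
  obtain ⟨hxc, hxp⟩ := cyc_of_lt h.hp h.hox (lt_of_le_of_lt (Finset.card_le_univ _) (by omega))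
  have h3 : IsMultiplyPretransitive (Subgroup.closure ({x, y} : Set (Equiv.Perm D))) D 3 :=
    three_tr h.prim (Dat.xmem x y) hxc h.hp hxp (by omega)
  apply h.of_le _ (by omega)
  rcases five_or h.le_alt (Dat.xmem x y) hxc hxp hc with h1 | ⟨u, hu, hou⟩
  · exfalso
    exact sharp3_false h3 (triv3 h3 (Dat.xmem x y) hxc hxp (by omega) h1) (n := 12) (r := 2) (s := 3) hc
      (by norm_num) Nat.prime_two Nat.prime_three (by norm_num) (by norm_num) (by norm_num)
  · by_cases h10 : u.support.card < 10
    · obtain ⟨h4, h5⟩ := cyc_of_lt Nat.prime_five hou (by omega)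
      exact JordanCycle.jordan _ h.prim Nat.prime_five (by omega) h4 h5 hu.1
    · have hsub : u.support ⊆ x.support := by
        intro t ht
        by_contra hcon
        exact (Equiv.Perm.mem_support.mp ht) (hu.2 t (Finset.mem_compl.mpr hcon))
      have h6 := Finset.card_le_card hsub
      rw [hxp] at h6
      obtain ⟨n', hn'⟩ := cycleType_prime_order (σ := u) (by rw [hou]; exact Nat.prime_five)
      have hsum := sum_cycleType u
      rw [hn', hou, Multiset.sum_replicate, smul_eq_mul] at hsum
      exact five_case h.prim h3 hc hu.1 hou (by omega)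

/-- **Main theorem.** -/
theorem main (m : ℕ) (hm : 5 ≤ m) :
    ∃ p q : ℕ, p.Prime ∧ q.Prime ∧ m ≤ 2 * p ∧ p < q ∧ q ≤ m ∧
      ∀ x y : alternatingGroup (Fin m), orderOf x = p → orderOf y = q →
        ∃ d : ℕ, 5 ≤ d ∧ Nonempty (Subgroup.closure ({x, y} : Set (alternatingGroup (Fin m))) ≃* alternatingGroup (Fin d)) := by
  by_cases h17 : 17 ≤ m
  · obtain ⟨p, q, hp, hq, h1, h2, h3⟩ := H1AmNum.exists_pair m h17
    refine ⟨p, q, hp, hq, by omega, by omega, h3, fun x y hx hy => ?_⟩
    apply glue m x y hp hq (by omega) (by omega) hx hy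
    intro D _ _ x y hD h
    exact h.caseX (by have := h.le_card; omega) (lt_of_le_of_lt (Finset.card_le_univ _) (by omega))
  by_cases h15 : 15 ≤ m
  · refine ⟨11, 13, by norm_num, by norm_num, by omega, by omega, by omega, fun x y hx hy => ?_⟩
    apply glue m x y (by norm_num) (by norm_num) (by omega) (by omega) hx hy
    intro D _ _ x y hD h
    by_cases h13 : Fintype.card D = 13
    · exact h.case13 h13
    · exact h.caseX (by have := h.le_card; omega) (lt_of_le_of_lt (Finset.card_le_univ _) (by omega))
  by_cases h11 : 11 ≤ m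
  · refine ⟨7, 11, by norm_num, by norm_num, by omega, by omega, by omega, fun x y hx hy => ?_⟩
    apply glue m x y (by norm_num) (by norm_num) (by omega) (by omega) hx hy
    intro D _ _ x y hD h
    by_cases h14 : Fintype.card D = 14
    · exact h.caseY (by omega)
    · exact h.caseX (by have := h.le_card; omega) (lt_of_le_of_lt (Finset.card_le_univ _) (by omega))
  by_cases h7 : 7 ≤ m
  · refine ⟨5, 7, by norm_num, by norm_num, by omega, by omega, by omega, fun x y hx hy => ?_⟩
    apply glue m x y (by norm_num) (by norm_num) (by omega) (by omega) hx hy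
    intro D _ _ x y hD h
    by_cases h10 : Fintype.card D = 10
    · exact h.caseY (by omega)
    by_cases h7' : Fintype.card D = 7
    · exact h.case7 h7'
    · exact h.caseX (by have := h.le_card; omega) (lt_of_le_of_lt (Finset.card_le_univ _) (by omega))
  · refine ⟨3, 5, by norm_num, by norm_num, by omega, by omega, by omega, fun x y hx hy => ?_⟩
    apply glue m x y (by norm_num) (by norm_num) (by omega) (by omega) hx hy
    intro D _ _ x y hD h
    by_cases h6 : Fintype.card D = 6
    · exact h.case6 h6
    · exact h.case3 (lt_of_le_of_lt (Finset.card_le_univ _) (by omega))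

end Cfsg.Agent.Lib.H1AmGen
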