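import Cfsg.Agent.Lib.JordanCycle

/-!
H1AmGen: groups generated by an element of prime order `p` and one of prime order `q`,
degree `≤ 2 p`, `p < q`.
-/

set_option autoImplicit false

namespace Cfsg.Agent.Lib.H1AmGen

open MulAction Equiv.Perm

variable {D : Type} [Fintype D] [DecidableEq D]

theorem cyc_of_lt {y : Equiv.Perm D} {q : ℕ} (hq : q.Prime) (ho : orderOf y = q) (h : y.support.card < 2 * q) :
    y.IsCycle ∧ y.support.card = q := by
  have h1 : y.IsCycle := isCycle_of_prime_order (by rw [ho]; exact hq) (by rw [ho]; exact h)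
  exact ⟨h1, by rw [← h1.orderOf, ho]⟩

/-- the orbit of a moved point under an element of prime order -/
theorem card_orbit {x : Equiv.Perm D} {p : ℕ} (hp : p.Prime) (ho : orderOf x = p) {b : D} (hb : x b ≠ b) :
    ((Finset.range p).image (fun i => (x ^ i) b)).card = p := by
  have := Fact.mk hp
  have hper : Function.IsPeriodicPt x p b := by
    show (x : D → D)^[p] b = b
    rw [← Equiv.Perm.coe_pow, ← ho, pow_orderOf_eq_one, Equiv.Perm.one_apply]
  have hmin : Function.minimalPeriod x b = p := Function.minimalPeriod_eq_prime hper hb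
  rw [Finset.card_image_of_injOn, Finset.card_range]
  intro i hi j hj hij
  have h1 := Function.iterate_injOn_Iio_minimalPeriod (f := x) (x := b)
  apply h1
  · rw [hmin]; exact Finset.mem_range.mp hi
  · rw [hmin]; exact Finset.mem_range.mp hj
  · simpa [Equiv.Perm.coe_pow] using hij

theorem transitive {H : Subgroup (Equiv.Perm D)} {x y : Equiv.Perm D} (hx : x ∈ H) (hy : y ∈ H) {p q : ℕ}
    (hp : p.Prime) (hpq : p < q) (hox : orderOf x = p) (hyc : y.IsCycle) (hyq : y.support.card = q)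
    (hD : Fintype.card D ≤ 2 * p) (hxy : ∀ a, x a ≠ a ∨ y a ≠ a) : IsPretransitive H D := by
  -- every point is in the orbit of a point of the support of y
  have h1 : ∀ b : D, ∃ c ∈ y.support, ∃ h ∈ H, h b = c := by
    intro b
    by_cases hb : y b = b
    · have hxb : x b ≠ b := (hxy b).resolve_right (by simpa using hb)
      by_contra hcon
      push Not at hcon
      have h2 : (Finset.range p).image (fun i => (x ^ i) b) ⊆ (y.supportᶜ : Finset D) := by
        intro c hc
        obtain ⟨i, -, rfl⟩ := Finset.mem_image.mp hc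
        rw [Finset.mem_compl]
        intro hc
        exact hcon _ hc (x ^ i) (H.pow_mem hx i) rfl
      have h3 := Finset.card_le_card h2
      rw [card_orbit hp hox hxb, Finset.card_compl, hyq] at h3
      have := hp.pos
      omega
    · exact ⟨b, Equiv.Perm.mem_support.mpr hb, 1, H.one_mem, rfl⟩
  refine ⟨fun a b => ?_⟩
  obtain ⟨c, hc, h, hh, rfl⟩ := h1 a
  obtain ⟨c', hc', h', hh', rfl⟩ := h1 b
  obtain ⟨i, hi⟩ := hyc.exists_zpow_eq (Equiv.Perm.mem_support.mp hc) (Equiv.Perm.mem_support.mp hc')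
  refine ⟨⟨h'⁻¹ * (y ^ i * h), H.mul_mem (H.inv_mem hh') (H.mul_mem (H.zpow_mem hy i) hh)⟩, ?_⟩
  show (h'⁻¹ * (y ^ i * h)) a = b
  rw [Equiv.Perm.mul_apply, Equiv.Perm.mul_apply, hi, Equiv.Perm.inv_eq_iff_eq]

theorem primitive {H : Subgroup (Equiv.Perm D)} {y : Equiv.Perm D} (hy : y ∈ H) (htr : IsPretransitive H D)
    {q : ℕ} (hq : q.Prime) (hyc : y.IsCycle) (hyq : y.support.card = q) (hD : Fintype.card D < 2 * q) :
    IsPreprimitive H D := by
  have h1 := isPretransitive_of_isCycle_mem hyc hy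
  have h2 : IsPreprimitive (fixingSubgroup H (y.support : Set D)ᶜ)
      (SubMulAction.ofFixingSubgroup H (y.support : Set D)ᶜ) := by
    apply IsPreprimitive.of_prime_card
    convert! hq
    rw [show Nat.card (SubMulAction.ofFixingSubgroup H (y.support : Set D)ᶜ) =
        (((y.support : Set D)ᶜ)ᶜ).ncard from Nat.card_coe_set_eq _, compl_compl,
        Set.ncard_coe_finset, hyq]
  let f : SubMulAction.ofFixingSubgroup H (y.support : Set D)ᶜ →ₑ[(fixingSubgroup H (y.support : Set D)ᶜ).subtype] D :=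
    { toFun := fun a => (a : D)
      map_smul' := fun _ _ => rfl }
  have hr : Set.range f = (y.support : Set D) := by
    ext a
    constructor
    · rintro ⟨b, rfl⟩
      have h3 := b.2
      rw [SubMulAction.mem_ofFixingSubgroup_iff] at h3
      show (b : D) ∈ (y.support : Set D)
      simpa using h3
    · intro ha
      exact ⟨⟨a, by rw [SubMulAction.mem_ofFixingSubgroup_iff]; simpa using ha⟩, rfl⟩
  apply IsPreprimitive.of_card_lt (f := f)
  rw [hr, Set.ncard_coe_finset, hyq, Nat.card_eq_fintype_card]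
  exact hD

/-- The data. -/
structure Dat (D : Type) [Fintype D] [DecidableEq D] (x y : Equiv.Perm D) (p q : ℕ) : Prop where
  hp : p.Prime
  hq : q.Prime
  hpq : p < q
  hox : orderOf x = p
  hoy : orderOf y = q
  hD : Fintype.card D ≤ 2 * p
  hxy : ∀ a, x a ≠ a ∨ y a ≠ a
  sx : sign x = 1
  sy : sign y = 1

variable {x y : Equiv.Perm D} {p q : ℕ}

theorem Dat.ycyc (h : Dat D x y p q) : y.IsCycle ∧ y.support.card = q :=
  cyc_of_lt h.hq h.hoy (lt_of_le_of_lt (Finset.card_le_univ _) (by have := h.hD; have := h.hpq; omega))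

theorem Dat.le_card (h : Dat D x y p q) : q ≤ Fintype.card D := by
  rw [← h.ycyc.2]; exact Finset.card_le_univ _

theorem Dat.xmem (x y : Equiv.Perm D) : x ∈ Subgroup.closure ({x, y} : Set (Equiv.Perm D)) :=
  Subgroup.subset_closure (by simp)

theorem Dat.ymem (x y : Equiv.Perm D) : y ∈ Subgroup.closure ({x, y} : Set (Equiv.Perm D)) :=
  Subgroup.subset_closure (by simp)

theorem Dat.le_alt (h : Dat D x y p q) : Subgroup.closure ({x, y} : Set (Equiv.Perm D)) ≤ alternatingGroup D := by
  rw [Subgroup.closure_le]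
  rintro z (rfl | rfl)
  · exact h.sx
  · exact h.sy

theorem Dat.tr (h : Dat D x y p q) : IsPretransitive (Subgroup.closure ({x, y} : Set (Equiv.Perm D))) D :=
  transitive (Dat.xmem x y) (Dat.ymem x y) h.hp h.hpq h.hox h.ycyc.1 h.ycyc.2 h.hD h.hxy

theorem Dat.prim (h : Dat D x y p q) : IsPreprimitive (Subgroup.closure ({x, y} : Set (Equiv.Perm D))) D :=
  primitive (Dat.ymem x y) h.tr h.hq h.ycyc.1 h.ycyc.2 (by have := h.hD; have := h.hpq; omega)

theorem Dat.of_le (h : Dat D x y p q) (hle : alternatingGroup D ≤ Subgroup.closure ({x, y} : Set (Equiv.Perm D)))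
    (h5 : 5 ≤ Fintype.card D) :
    ∃ d : ℕ, 5 ≤ d ∧ Nonempty (Subgroup.closure ({x, y} : Set (Equiv.Perm D)) ≃* alternatingGroup (Fin d)) := by
  refine ⟨Fintype.card D, h5, ?_⟩
  have e1 : Subgroup.closure ({x, y} : Set (Equiv.Perm D)) = alternatingGroup D := le_antisymm h.le_alt hle
  rw [e1]
  exact ⟨Equiv.altCongrHom (Fintype.equivFin D)⟩

/-- the case `q + 3 ≤ d` -/
theorem Dat.caseY (h : Dat D x y p q) (hd : q + 3 ≤ Fintype.card D) :
    ∃ d : ℕ, 5 ≤ d ∧ Nonempty (Subgroup.closure ({x, y} : Set (Equiv.Perm D)) ≃* alternatingGroup (Fin d)) :=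
  h.of_le (Cfsg.Agent.Lib.JordanCycle.jordan _ h.prim h.hq hd h.ycyc.1 h.ycyc.2 (Dat.ymem x y))
    (by have := h.hq.two_le; omega)

/-- the case `p + 3 ≤ d`, `x` a cycle -/
theorem Dat.caseX (h : Dat D x y p q) (hd : p + 3 ≤ Fintype.card D) (hx : x.support.card < 2 * p) :
    ∃ d : ℕ, 5 ≤ d ∧ Nonempty (Subgroup.closure ({x, y} : Set (Equiv.Perm D)) ≃* alternatingGroup (Fin d)) := by
  obtain ⟨h1, h2⟩ := cyc_of_lt h.hp h.hox hx
  exact h.of_le (Cfsg.Agent.Lib.JordanCycle.jordan _ h.prim h.hp hd h1 h2 (Dat.xmem x y))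
    (by have := h.hp.two_le; omega)

/-- `x` a 3-cycle -/
theorem Dat.case3 (h : Dat D x y 3 5) (hx : x.support.card < 6) :
    ∃ d : ℕ, 5 ≤ d ∧ Nonempty (Subgroup.closure ({x, y} : Set (Equiv.Perm D)) ≃* alternatingGroup (Fin d)) := by
  obtain ⟨h1, h2⟩ := cyc_of_lt h.hp h.hox hx
  have h3 : x.IsThreeCycle := by rw [← card_support_eq_three_iff]; exact h2
  exact h.of_le (alternatingGroup_le_of_isPreprimitive_of_isThreeCycle_mem h.prim h3 (Dat.xmem x y)) h.le_card

/-- passing from `Fin m` to the support -/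
theorem glue (m : ℕ) (x y : alternatingGroup (Fin m)) {p q : ℕ} (hp : p.Prime) (hq : q.Prime) (hpq : p < q)
    (hm : m ≤ 2 * p) (hx : orderOf x = p) (hy : orderOf y = q)
    (main : ∀ (D : Type) [Fintype D] [DecidableEq D] (x y : Equiv.Perm D), Fintype.card D ≤ m → Dat D x y p q →
      ∃ d : ℕ, 5 ≤ d ∧ Nonempty (Subgroup.closure ({x, y} : Set (Equiv.Perm D)) ≃* alternatingGroup (Fin d))) :
    ∃ d : ℕ, 5 ≤ d ∧ Nonempty (Subgroup.closure ({x, y} : Set (alternatingGroup (Fin m))) ≃* alternatingGroup (Fin d)) := by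
  classical
  set X : Equiv.Perm (Fin m) := (x : Equiv.Perm (Fin m)) with hX
  set Y : Equiv.Perm (Fin m) := (y : Equiv.Perm (Fin m)) with hY
  let P : Fin m → Prop := fun a => X a ≠ a ∨ Y a ≠ a
  have hPX : ∀ a, P (X a) ↔ P a := by
    intro a
    by_cases h : X a = a
    · rw [h]
    · have h1 : X (X a) ≠ X a := fun hc => h (X.injective hc)
      exact ⟨fun _ => Or.inl h, fun _ => Or.inl h1⟩
  have hPY : ∀ a, P (Y a) ↔ P a := by
    intro a
    by_cases h : Y a = a
    · rw [h]
    · have h1 : Y (Y a) ≠ Y a := fun hc => h (Y.injective hc)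
      exact ⟨fun _ => Or.inr h, fun _ => Or.inr h1⟩
  let X' : Equiv.Perm {a // P a} := X.subtypePerm hPX
  let Y' : Equiv.Perm {a // P a} := Y.subtypePerm hPY
  have eX : Equiv.Perm.ofSubtype X' = X := Equiv.Perm.ofSubtype_subtypePerm hPX (fun a ha => Or.inl ha)
  have eY : Equiv.Perm.ofSubtype Y' = Y := Equiv.Perm.ofSubtype_subtypePerm hPY (fun a ha => Or.inr ha)
  have hinj : Function.Injective (Equiv.Perm.ofSubtype : Equiv.Perm {a // P a} →* Equiv.Perm (Fin m)) :=
    Equiv.Perm.ofSubtype_injective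
  have hoX : orderOf X = p := by rw [hX, Subgroup.orderOf_coe, hx]
  have hoY : orderOf Y = q := by rw [hY, Subgroup.orderOf_coe, hy]
  have hd : Dat {a // P a} X' Y' p q := by
    refine ⟨hp, hq, hpq, ?_, ?_, ?_, ?_, ?_, ?_⟩
    · rw [← orderOf_injective _ hinj, eX, hoX]
    · rw [← orderOf_injective _ hinj, eY, hoY]
    · refine le_trans ?_ hm
      have := Fintype.card_subtype_le P
      simpa using this
    · rintro ⟨a, ha⟩
      rcases ha with ha | ha
      · left
        intro hc
        exact ha (congrArg Subtype.val hc)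
      · right
        intro hc
        exact ha (congrArg Subtype.val hc)
    · rw [← Equiv.Perm.sign_ofSubtype, eX]; exact x.2
    · rw [← Equiv.Perm.sign_ofSubtype, eY]; exact y.2
  obtain ⟨d, hd5, ⟨e⟩⟩ := main {a // P a} X' Y' (by
    have := Fintype.card_subtype_le P
    simpa using this) hd
  refine ⟨d, hd5, ⟨?_⟩⟩
  have e1 : (Subgroup.closure ({x, y} : Set (alternatingGroup (Fin m)))).map (alternatingGroup (Fin m)).subtype =
      (Subgroup.closure ({X', Y'} : Set (Equiv.Perm {a // P a}))).map Equiv.Perm.ofSubtype := by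
    rw [MonoidHom.map_closure, MonoidHom.map_closure, Set.image_pair, Set.image_pair]
    rw [eX, eY]
    rfl
  exact (Subgroup.equivMapOfInjective _ _ (Subgroup.subtype_injective _)).trans
    ((MulEquiv.subgroupCongr e1).trans ((Subgroup.equivMapOfInjective _ _ hinj).symm.trans e))

end Cfsg.Agent.Lib.H1AmGen
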