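import Cfsg.Agent.Lib.H1AmSmall

/-!
H1AmSeven: degree `p + 2`, the special degree 7.
-/

set_option autoImplicit false

namespace Cfsg.Agent.Lib.H1AmGen

open MulAction Equiv.Perm Cfsg.Agent.Lib.GenerousP

variable {D : Type} [Fintype D] [DecidableEq D]

theorem three_tr {H : Subgroup (Equiv.Perm D)} (hprim : IsPreprimitive H D) {x : Equiv.Perm D} (hx : x ∈ H)
    (hxc : x.IsCycle) {p : ℕ} (hp : p.Prime) (hxp : x.support.card = p) (hD : Fintype.card D = p + 2) :
    IsMultiplyPretransitive H D 3 := by
  have hcard : Nat.card D = Fintype.card D := Nat.card_eq_fintype_card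
  have hsc : Set.ncard ((x.support : Set D)ᶜ) = 1 + 1 := by
    rw [← Finset.coe_compl, Set.ncard_coe_finset, Finset.card_compl, hxp]; omega
  have h1 := isPretransitive_of_isCycle_mem hxc hx
  have hpre := hprim.isMultiplyPreprimitive hsc (by rw [hcard]; have := hp.two_le; omega) (by
      apply IsPreprimitive.of_prime_card
      convert! hp
      rw [show Nat.card (SubMulAction.ofFixingSubgroup H (x.support : Set D)ᶜ) =
        (((x.support : Set D)ᶜ)ᶜ).ncard from Nat.card_coe_set_eq _, compl_compl,
        Set.ncard_coe_finset, hxp])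
  exact IsMultiplyPreprimitive.isMultiplyPretransitive H D 3

theorem two_of_three {H : Subgroup (Equiv.Perm D)} (h3 : IsMultiplyPretransitive H D 3) (hD : 3 ≤ Fintype.card D) :
    IsMultiplyPretransitive H D 2 := by
  apply isMultiplyPretransitive_of_le' (n := 3) (by omega)
  rw [ENat.card_eq_coe_natCard, Nat.card_eq_fintype_card]
  exact_mod_cast hD

theorem sharp3_false {H : Subgroup (Equiv.Perm D)} (h3 : IsMultiplyPretransitive H D 3)
    (htriv : ∀ C : Finset D, C.card = 3 → ∀ g ∈ H, (∀ t ∈ C, g t = t) → g = 1) {n r s : ℕ}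
    (hD : Fintype.card D = n + 1) (hn : 2 ≤ n) (hr : r.Prime) (hs : s.Prime) (hrs : r ≠ s)
    (hrn : r ∣ n) (hsn : s ∣ n) : False := by
  obtain ⟨a⟩ : Nonempty D := Fintype.card_pos_iff.mp (by omega)
  have h1 : IsPretransitive H D := by
    rw [← is_one_pretransitive_iff]
    apply isMultiplyPretransitive_of_le' (n := 3) (by omega)
    rw [ENat.card_eq_coe_natCard, Nat.card_eq_fintype_card]
    exact_mod_cast (by omega : 3 ≤ Fintype.card D)
  have hcard := SubMulAction.nat_card_ofStabilizer_add_one_eq H a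
  rw [Nat.card_eq_fintype_card (α := D), hD] at hcard
  have h2 : IsMultiplyPretransitive (stabilizer H a) (SubMulAction.ofStabilizer H a) 2 :=
    SubMulAction.ofStabilizer.isMultiplyPretransitive.mp h3
  obtain ⟨p, hp, N, -, -, hN, hNp, -⟩ := Cfsg.Agent.Lib.Sharply2.main h2 (by
    intro g b c hbc hb hc
    apply Subtype.ext
    apply Subtype.ext
    have hba : (b : D) ≠ a := b.2
    have hca : (c : D) ≠ a := c.2
    have hbc' : (b : D) ≠ c := fun h => hbc (Subtype.ext h)
    apply htriv {a, (b : D), (c : D)} (Finset.card_eq_three.mpr ⟨a, b, c, hba.symm, hca.symm, hbc', rfl⟩) _ (g : H).2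
    intro t ht
    simp only [Finset.mem_insert, Finset.mem_singleton] at ht
    rcases ht with rfl | rfl | rfl
    · exact g.2
    · exact congrArg Subtype.val hb
    · exact congrArg Subtype.val hc) (by omega)
  have hNn : Nat.card N = n := by omega
  have key : ∀ l : ℕ, l.Prime → l ∣ n → l = p := by
    intro l hl hlD
    have := Fact.mk hl
    obtain ⟨g, hg⟩ := exists_prime_orderOf_dvd_card' (G := N) l (by rw [hNn]; exact hlD)
    have h2 := hNp g g.2
    have h3 : g ^ p = 1 := Subtype.ext (by simpa using h2)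
    have h4 := orderOf_dvd_of_pow_eq_one h3
    rw [hg] at h4
    exact (Nat.prime_dvd_prime_iff_eq hl hp).mp h4
  exact hrs ((key r hr hrn).trans (key s hs hsn).symm)

/-- if the stabiliser of the two remaining points is just `⟨x⟩` then the group is sharply 3-transitive -/
theorem triv3 {H : Subgroup (Equiv.Perm D)} (h3 : IsMultiplyPretransitive H D 3) {x : Equiv.Perm D} (hx : x ∈ H)
    (hxc : x.IsCycle) {p : ℕ} (hxp : x.support.card = p) (hD : Fintype.card D = p + 2)
    (hK : Nat.card (PS H (x.supportᶜ : Finset D)) = p) :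
    ∀ C : Finset D, C.card = 3 → ∀ g ∈ H, (∀ t ∈ C, g t = t) → g = 1 := by
  classical
  have hxK : x ∈ PS H (x.supportᶜ : Finset D) := by
    refine ⟨hx, fun t ht => ?_⟩
    rw [Finset.mem_compl] at ht
    exact Equiv.Perm.notMem_support.mp ht
  have hz : Subgroup.zpowers x = PS H (x.supportᶜ : Finset D) := by
    apply Subgroup.eq_of_le_of_card_ge
    · rw [Subgroup.zpowers_le]; exact hxK
    · rw [hK, Nat.card_zpowers, hxc.orderOf, hxp]
  obtain ⟨t, ht⟩ := hxc.nonempty_support
  have hc0 : (insert t (x.supportᶜ : Finset D)).card = 3 := by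
    rw [Finset.card_insert_of_notMem (by rw [Finset.mem_compl]; exact fun h => h ht), Finset.card_compl, hxp]
    omega
  have h0 : Nat.card (PS H (insert t (x.supportᶜ : Finset D))) = 1 := by
    rw [Subgroup.card_eq_one, eq_bot_iff]
    intro g hg
    rw [Subgroup.mem_bot]
    have hgK : g ∈ PS H (x.supportᶜ : Finset D) := ⟨hg.1, fun s hs => hg.2 s (Finset.mem_insert_of_mem hs)⟩
    rw [← hz] at hgK
    obtain ⟨i, hi⟩ := hgK
    have hi' : x ^ i = g := hi
    obtain ⟨n, hn⟩ : ∃ n : ℕ, x ^ n = g := by
      have : g ∈ Submonoid.powers x := by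
        rw [mem_powers_iff_mem_zpowers]; exact ⟨i, hi⟩
      exact this
    rw [← hn, hxc.pow_eq_one_iff]
    refine ⟨t, Equiv.Perm.mem_support.mp ht, ?_⟩
    rw [hn]
    exact hg.2 t (Finset.mem_insert_self _ _)
  intro C hC g hg hgC
  have h4 := card_PS h3 hc0 hC
  rw [h0] at h4
  have h5 : PS H C = ⊥ := Subgroup.card_eq_one.mp h4.symm
  have h6 : g ∈ PS H C := ⟨hg, hgC⟩
  rw [h5] at h6
  exact h6

theorem card_eq {H : Subgroup (Equiv.Perm D)} {k : ℕ} (hk : IsMultiplyPretransitive H D k) {C : Finset D}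
    (hC : C.card = k) :
    Nat.card H * (Fintype.card D - k).factorial = (Fintype.card D).factorial * Nat.card (PS H C) := by
  have h1 := hk.index_of_fixingSubgroup_mul (s := (C : Set D)) (by rw [Set.ncard_coe_finset, hC])
  rw [Nat.card_eq_fintype_card (α := D)] at h1
  have h2 := (fixingSubgroup H (C : Set D)).card_mul_index
  have h3 : Nat.card (fixingSubgroup H (C : Set D)) = Nat.card (PS H C) := by
    have e : (fixingSubgroup H (C : Set D)).map H.subtype = PS H C := by
      ext g
      constructor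
      · rintro ⟨g', hg', rfl⟩
        refine ⟨g'.2, fun t ht => ?_⟩
        have := (mem_fixingSubgroup_iff H).mp hg' t (by simpa using ht)
        exact this
      · rintro ⟨hg, hgC⟩
        refine ⟨⟨g, hg⟩, ?_, rfl⟩
        rw [SetLike.mem_coe, mem_fixingSubgroup_iff]
        intro t ht
        exact hgC t (by simpa using ht)
    rw [← e, Subgroup.card_map_of_injective (Subgroup.subtype_injective H)]
  rw [← h2, h3, ← h1]
  ring

theorem Dat.case7 {x y : Equiv.Perm D} (h : Dat D x y 5 7) (hc : Fintype.card D = 7) :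
    ∃ d : ℕ, 5 ≤ d ∧ Nonempty (Subgroup.closure ({x, y} : Set (Equiv.Perm D)) ≃* alternatingGroup (Fin d)) := by
  classical
  obtain ⟨hxc, hxp⟩ := cyc_of_lt h.hp h.hox (lt_of_le_of_lt (Finset.card_le_univ _) (by omega))
  have h3 : IsMultiplyPretransitive (Subgroup.closure ({x, y} : Set (Equiv.Perm D))) D 3 :=
    three_tr h.prim (Dat.xmem x y) hxc h.hp hxp (by omega)
  have h2 := two_of_three h3 (by omega)
  set H := Subgroup.closure ({x, y} : Set (Equiv.Perm D)) with hH
  have hA : Nat.card (alternatingGroup D) = 2520 := by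
    have := card_alt (D := D) (by omega)
    rw [hc] at this
    have h2 : Nat.factorial 7 = 5040 := by decide
    omega
  have hxK : x ∈ PS H (x.supportᶜ : Finset D) := by
    refine ⟨Dat.xmem x y, fun t ht => ?_⟩
    rw [Finset.mem_compl] at ht
    exact Equiv.Perm.notMem_support.mp ht
  have h5 : 5 ∣ Nat.card (PS H (x.supportᶜ : Finset D)) := by
    rw [← h.hox]
    exact Subgroup.orderOf_dvd_natCard _ hxK
  have hcard := card_eq h2 (C := (x.supportᶜ : Finset D)) (by rw [Finset.card_compl, hxp, hc])
  rw [hc] at hcard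
  have e1 : (7 - 2).factorial = 120 := by decide
  have e2 : Nat.factorial 7 = 5040 := by decide
  rw [e1, e2] at hcard
  obtain ⟨j, hj⟩ := h5
  have hjpos : 0 < j := by
    rcases Nat.eq_zero_or_pos j with rfl | h
    · have : 0 < Nat.card (PS H (x.supportᶜ : Finset D)) := Nat.card_pos
      omega
    · exact h
  by_cases hj1 : j = 1
  · exfalso
    exact sharp3_false h3 (triv3 h3 (Dat.xmem x y) hxc hxp (by omega) (by rw [hj, hj1])) (n := 6) (r := 2) (s := 3) hc
      (by norm_num) Nat.prime_two Nat.prime_three (by norm_num) (by norm_num) (by norm_num)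
  have hHj : Nat.card H = 210 * j := by rw [hj] at hcard; omega
  have hdvd : Nat.card H ∣ 2520 := by
    rw [← hA]
    exact Subgroup.card_dvd_of_le h.le_alt
  obtain ⟨i, hi⟩ := hdvd
  have hi6 : i ≤ 6 := by
    by_contra hcon
    have : 210 * j * i = 2520 := by rw [← hHj]; exact hi.symm
    have h7 : 2 * 7 ≤ j * i := Nat.mul_le_mul (by omega) (by omega)
    nlinarith
  apply h.of_le _ (by omega)
  apply alt_of_relindex (by omega) h.le_alt (i := i)
  · rw [hA]; exact hi.symm
  · rw [hA]
    calc i.factorial ≤ Nat.factorial 6 := Nat.factorial_le hi6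
      _ < 2520 := by decide

end Cfsg.Agent.Lib.H1AmGen
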