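import Cfsg.Agent.Lib.H1AmGen
import Cfsg.Agent.Lib.SL25
import Cfsg.Agent.Lib.ClSmall
import Cfsg.Agent.Lib.PrimNormal
import Cfsg.Agent.Lib.Sharply2
import Cfsg.Agent.Lib.SubgroupTools
import Cfsg.Agent.Lib.GenerousP

/-!
H1AmSmall: the special degrees 6 and 7.
-/

set_option autoImplicit false

namespace Cfsg.Agent.Lib.H1AmGen

open MulAction Equiv.Perm Cfsg.Agent.Lib.GenerousP

variable {D : Type} [Fintype D] [DecidableEq D]

theorem alt_of_relindex (h5 : 5 ≤ Fintype.card D) {H : Subgroup (Equiv.Perm D)} (hH : H ≤ alternatingGroup D) {i : ℕ}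
    (hi : Nat.card H * i = Nat.card (alternatingGroup D)) (hf : i.factorial < Nat.card (alternatingGroup D)) :
    alternatingGroup D ≤ H := by
  classical
  have hs : IsSimpleGroup (alternatingGroup D) := alternatingGroup.isSimpleGroup (by rw [Nat.card_eq_fintype_card]; exact h5)
  set H' : Subgroup (alternatingGroup D) := H.subgroupOf (alternatingGroup D) with hH'
  have hcard : Nat.card H' = Nat.card H := Nat.card_congr (Subgroup.subgroupOfEquivOfLe hH).toEquiv
  have hidx : H'.index = i := by
    have h1 := H'.card_mul_index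
    rw [hcard, ← hi] at h1
    exact Nat.eq_of_mul_eq_mul_left Nat.card_pos h1
  set f : alternatingGroup D →* Equiv.Perm (alternatingGroup D ⧸ H') := MulAction.toPermHom _ _ with hfd
  have hkH : f.ker ≤ H' := by
    rw [hfd, ← Subgroup.normalCore_eq_ker]
    exact Subgroup.normalCore_le H'
  rcases (inferInstance : f.ker.Normal).eq_bot_or_eq_top with hk | hk
  · exfalso
    have hinj : Function.Injective f := (MonoidHom.ker_eq_bot_iff f).1 hk
    have h1 := Nat.card_le_card_of_injective f hinj
    rw [Nat.card_perm] at h1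
    have h2 : Nat.card (alternatingGroup D ⧸ H') = H'.index := rfl
    rw [h2, hidx] at h1
    omega
  · rw [hk, top_le_iff] at hkH
    intro g hg
    have : (⟨g, hg⟩ : alternatingGroup D) ∈ H' := by rw [hkH]; trivial
    exact this

theorem card_alt (h2 : 2 ≤ Fintype.card D) : 2 * Nat.card (alternatingGroup D) = (Fintype.card D).factorial := by
  have : Nontrivial D := Fintype.one_lt_card_iff_nontrivial.mp (by omega)
  have h1 := two_mul_card_alternatingGroup (α := D)
  rw [Fintype.card_perm] at h1
  rw [Nat.card_eq_fintype_card]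
  exact h1

theorem card_dvd (H : Subgroup (Equiv.Perm D)) (htr : IsPretransitive H D) (hne : 0 < Fintype.card D) :
    Fintype.card D ∣ Nat.card H := by
  obtain ⟨a⟩ : Nonempty D := Fintype.card_pos_iff.mp hne
  have h1 := Nat.card_congr (orbitProdStabilizerEquivGroup H a)
  rw [Nat.card_prod, orbit_eq_univ, Nat.card_congr (Equiv.Set.univ _), Nat.card_eq_fintype_card (α := D)] at h1
  exact Dvd.intro _ h1

/-- a solvable primitive group has prime power degree -/
theorem not_solvable {H : Subgroup (Equiv.Perm D)} (hprim : IsPreprimitive H D) {r s : ℕ} (hr : r.Prime) (hs : s.Prime)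
    (hrs : r ≠ s) (hrD : r ∣ Fintype.card D) (hsD : s ∣ Fintype.card D) (hD : 0 < Fintype.card D) :
    ¬ Group.IsSolvable H := by
  intro hsol
  have htr : IsPretransitive H D := hprim.toIsPretransitive
  have hd := card_dvd H htr hD
  have hnt : Nontrivial H := by
    rw [← Finite.one_lt_card_iff_nontrivial]
    have h1 := Nat.le_of_dvd Nat.card_pos hd
    have h2 := Nat.le_of_dvd hD hrD
    have := hr.two_le
    omega
  obtain ⟨p, E, hp, hE, hEc, -, hEp⟩ := Cfsg.Agent.Lib.SubgroupTools.exists_characteristic_elementary H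
  have hEt := Cfsg.Agent.Lib.PrimNormal.transitive_of_normal hprim E hE
  obtain ⟨a⟩ : Nonempty D := Fintype.card_pos_iff.mp hD
  have h1 := Nat.card_congr (orbitProdStabilizerEquivGroup E a)
  rw [Nat.card_prod, orbit_eq_univ, Nat.card_congr (Equiv.Set.univ _), Nat.card_eq_fintype_card (α := D)] at h1
  have key : ∀ l : ℕ, l.Prime → l ∣ Fintype.card D → l = p := by
    intro l hl hlD
    have := Fact.mk hl
    obtain ⟨g, hg⟩ := exists_prime_orderOf_dvd_card' l (hlD.trans (Dvd.intro _ h1))
    have h2 := hEp g g.2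
    have h3 : g ^ p = 1 := Subtype.ext (by simpa using h2)
    have h4 := orderOf_dvd_of_pow_eq_one h3
    rw [hg] at h4
    exact (Nat.prime_dvd_prime_iff_eq hl hp).mp h4
  exact hrs ((key r hr hrD).trans (key s hs hsD).symm)

theorem Dat.case6 {x y : Equiv.Perm D} (h : Dat D x y 3 5) (hc : Fintype.card D = 6) :
    ∃ d : ℕ, 5 ≤ d ∧ Nonempty (Subgroup.closure ({x, y} : Set (Equiv.Perm D)) ≃* alternatingGroup (Fin d)) := by
  classical
  set H := Subgroup.closure ({x, y} : Set (Equiv.Perm D)) with hH
  have hA : Nat.card (alternatingGroup D) = 360 := by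
    have := card_alt (D := D) (by omega)
    rw [hc] at this
    have h2 : Nat.factorial 6 = 720 := by decide
    omega
  have h6 : 6 ∣ Nat.card H := by
    have := card_dvd H h.tr (by omega)
    rwa [hc] at this
  have h5 : 5 ∣ Nat.card H := by
    rw [← h.hoy]
    exact Subgroup.orderOf_dvd_natCard _ (Dat.ymem x y)
  have hns : ¬ Group.IsSolvable H := not_solvable h.prim Nat.prime_two Nat.prime_three (by norm_num)
    (by rw [hc]; norm_num) (by rw [hc]; norm_num) (by omega)
  have h30 : 30 ∣ Nat.card H := by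
    have : Nat.Coprime 6 5 := by norm_num
    exact this.mul_dvd_of_dvd_of_dvd h6 h5
  have h360 : Nat.card H ∣ 360 := by
    rw [← hA]
    exact Subgroup.card_dvd_of_le h.le_alt
  obtain ⟨i, hi⟩ := h360
  obtain ⟨k, hk⟩ := h30
  have hik : i * k = 12 := by
    rw [hk] at hi
    nlinarith
  have hi12 : i ≤ 12 := Nat.le_of_dvd (by norm_num) (Dvd.intro _ hik)
  by_cases hi4 : i ≤ 4
  · apply h.of_le _ (by omega)
    apply alt_of_relindex (by omega) h.le_alt (i := i)
    · rw [hA]; exact hi.symm
    · rw [hA]
      calc i.factorial ≤ Nat.factorial 4 := Nat.factorial_le hi4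
        _ < 360 := by decide
  have hk2 : k = 1 ∨ k = 2 := by
    interval_cases i <;> omega
  rcases hk2 with rfl | rfl
  · exfalso
    apply hns
    have : IsZGroup H := IsZGroup.of_squarefree (by
      rw [hk]
      have : Squarefree (30 : ℕ) := by
        rw [show (30 : ℕ) = 2 * 3 * 5 by norm_num, Nat.squarefree_mul (by norm_num), Nat.squarefree_mul (by norm_num)]
        exact ⟨⟨Nat.prime_two.prime.squarefree, Nat.prime_three.prime.squarefree⟩, Nat.prime_five.prime.squarefree⟩
      simpa using this)
    infer_instance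
  · have h60 : Nat.card H = 60 := by rw [hk]
    have := Cfsg.Agent.Lib.SL25.isSimpleGroup_of_card_sixty h60 hns
    exact ⟨5, le_rfl, Cfsg.Agent.Lib.ClSmall.equiv_alternating_five h60⟩

end Cfsg.Agent.Lib.H1AmGen
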