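import Cfsg.Agent.Lib.H1AmSeven
import Cfsg.Agent.Lib.PrimeDegreeNorm

/-!
H1AmThirteen: the special degree 13.
-/

set_option autoImplicit false

namespace Cfsg.Agent.Lib.H1AmGen

open MulAction Equiv.Perm Cfsg.Agent.Lib.GenerousP

variable {D : Type} [Fintype D] [DecidableEq D]

theorem conj_of_small {K : Type} [Group K] [Finite K] (hsmall : ∀ Q : Sylow 5 K, Nat.card Q ≤ 10) {u u' : K}
    (hu : orderOf u = 5) (hu' : orderOf u' = 5) : ∃ k : K, k * u' * k⁻¹ ∈ Subgroup.zpowers u := by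
  classical
  have : Fact (Nat.Prime 5) := ⟨by norm_num⟩
  have hpz : IsPGroup 5 (Subgroup.zpowers u) := by
    apply IsPGroup.of_card (n := 1)
    rw [Nat.card_zpowers, hu, pow_one]
  have hpz' : IsPGroup 5 (Subgroup.zpowers u') := by
    apply IsPGroup.of_card (n := 1)
    rw [Nat.card_zpowers, hu', pow_one]
  obtain ⟨P, hP⟩ := hpz.exists_le_sylow
  obtain ⟨Q, hQ⟩ := hpz'.exists_le_sylow
  have hPcard : Nat.card P ≤ 5 := by
    obtain ⟨n, hn⟩ := P.isPGroup'.exists_card_eq
    have h10 := hsmall P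
    rw [hn] at h10 ⊢
    rcases Nat.lt_or_ge n 2 with h | h
    · calc 5 ^ n ≤ 5 ^ 1 := Nat.pow_le_pow_right (by norm_num) (by omega)
        _ = 5 := pow_one 5
    · exfalso
      have : 5 ^ 2 ≤ 5 ^ n := Nat.pow_le_pow_right (by norm_num) h
      omega
  have hPeq : Subgroup.zpowers u = P := by
    apply Subgroup.eq_of_le_of_card_ge hP
    rw [Nat.card_zpowers, hu]
    exact hPcard
  obtain ⟨k, hk⟩ := MulAction.exists_smul_eq K Q P
  refine ⟨k, ?_⟩
  have h1 : u' ∈ (Q : Subgroup K) := hQ (Subgroup.mem_zpowers _)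
  have h2 : k * u' * k⁻¹ ∈ (P : Subgroup K) := by
    rw [← hk]
    exact Subgroup.smul_mem_pointwise_smul _ (MulAut.conj k) _ h1
  rwa [← hPeq] at h2

theorem commute_pow_four {G : Type} [Group G] {u w : G} (hu : orderOf u = 5) (h : w * u * w⁻¹ ∈ Subgroup.zpowers u) :
    w ^ 4 * u = u * w ^ 4 := by
  obtain ⟨i, hi⟩ := Subgroup.mem_zpowers_iff.mp h
  have hn : ∀ n : ℕ, w ^ n * u * (w ^ n)⁻¹ = u ^ (i ^ n) := by
    intro n
    induction n with
    | zero => simp
    | succ n ih =>
      have e : w ^ (n + 1) * u * (w ^ (n + 1))⁻¹ = w ^ n * (w * u * w⁻¹) * (w ^ n)⁻¹ := by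
        rw [pow_succ]; group
      rw [e, ← hi, ← conj_zpow, ih, ← zpow_mul, pow_succ]
  have hcop : IsCoprime i ((5 : ℕ) : ℤ) := by
    rw [isCoprime_comm, Prime.coprime_iff_not_dvd (Nat.prime_iff_prime_int.mp Nat.prime_five)]
    intro hdvd
    have h1 : u ^ i = 1 := by
      rw [← orderOf_dvd_iff_zpow_eq_one, hu]; exact hdvd
    have h2 : w * u * w⁻¹ = 1 := by rw [← hi, h1]
    have h3 : u = 1 := by
      have : w⁻¹ * (w * u * w⁻¹) * w = 1 := by rw [h2]; group
      calc u = w⁻¹ * (w * u * w⁻¹) * w := by group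
        _ = 1 := this
    rw [h3, orderOf_one] at hu
    exact absurd hu (by norm_num)
  have hmod := Int.ModEq.pow_card_sub_one_eq_one Nat.prime_five hcop
  have h4 := hn 4
  have h5 : u ^ (i ^ 4) = u ^ (1 : ℤ) := by
    rw [zpow_eq_zpow_iff_modEq, hu]
    exact hmod
  rw [h5, zpow_one] at h4
  calc w ^ 4 * u = w ^ 4 * u * (w ^ 4)⁻¹ * w ^ 4 := by group
    _ = u * w ^ 4 := by rw [h4]

theorem orbit_shift {u g : Equiv.Perm D} (hou : orderOf u = 5) (hsup : u.support.card = 10) (hcomm : g * u = u * g)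
    {t : D} (ht : u t ≠ t) : ∃ j : ℤ, g (g t) = (u ^ j) t := by
  classical
  have hcz : ∀ (j : ℤ) (s : D), g ((u ^ j) s) = (u ^ j) (g s) := by
    intro j s
    have : g * u ^ j = u ^ j * g := Commute.zpow_right (show Commute g u from hcomm) j
    exact congrFun (congrArg DFunLike.coe this) s
  have hmv : ∀ s, u s ≠ s → u (g s) ≠ g s := by
    intro s hs hc
    apply hs
    apply g.injective
    have := hcz 1 s
    rw [zpow_one] at this
    rw [this, hc]
  let O : D → Finset D := fun s => (Finset.range 5).image (fun i => (u ^ i) s)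
  have hO : ∀ s, u s ≠ s → (O s).card = 5 := fun s hs => card_orbit Nat.prime_five hou hs
  have hOs : ∀ s, u s ≠ s → O s ⊆ u.support := by
    intro s hs r hr
    obtain ⟨i, -, rfl⟩ := Finset.mem_image.mp hr
    exact Equiv.Perm.pow_apply_mem_support.mpr (Equiv.Perm.mem_support.mpr hs)
  have hOm : ∀ s r, r ∈ O s → ∃ i : ℤ, r = (u ^ i) s := by
    intro s r hr
    obtain ⟨i, -, rfl⟩ := Finset.mem_image.mp hr
    exact ⟨i, by rw [zpow_natCast]⟩
  have h1 := hmv t ht
  have h2 := hmv _ h1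
  by_cases hdis : Disjoint (O t) (O (g (g t)))
  · have hun : O t ∪ O (g (g t)) = u.support := by
      apply Finset.eq_of_subset_of_card_le (Finset.union_subset (hOs _ ht) (hOs _ h2))
      rw [Finset.card_union_of_disjoint hdis, hO _ ht, hO _ h2, hsup]
    have h3 : g t ∈ O t ∪ O (g (g t)) := by rw [hun]; exact Equiv.Perm.mem_support.mpr h1
    rcases Finset.mem_union.mp h3 with h4 | h4
    · obtain ⟨i, hi⟩ := hOm _ _ h4
      refine ⟨i + i, ?_⟩
      rw [zpow_add, Equiv.Perm.mul_apply, ← hi, ← hcz, ← hi]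
    · obtain ⟨i, hi⟩ := hOm _ _ h4
      rw [← hcz] at hi
      have h5 : t = (u ^ i) (g t) := g.injective hi
      have h6 : g t = (u ^ (-i)) t := by
        conv_rhs => rw [h5]
        rw [← Equiv.Perm.mul_apply, ← zpow_add, neg_add_cancel, zpow_zero, Equiv.Perm.one_apply]
      refine ⟨-i + -i, ?_⟩
      rw [zpow_add, Equiv.Perm.mul_apply, ← h6, ← hcz, ← h6]
  · rw [Finset.not_disjoint_iff] at hdis
    obtain ⟨r, hr1, hr2⟩ := hdis
    obtain ⟨i, hi⟩ := hOm _ _ hr1
    obtain ⟨j, hj⟩ := hOm _ _ hr2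
    refine ⟨-j + i, ?_⟩
    rw [zpow_add, Equiv.Perm.mul_apply, ← hi, hj, zpow_neg]
    exact (Equiv.symm_apply_apply (u ^ j) _).symm

theorem pow_ten {u g : Equiv.Perm D} (hou : orderOf u = 5) (hsup : u.support.card = 10) (hcomm : g * u = u * g)
    {t : D} (ht : u t ≠ t) : (g ^ 10) t = t := by
  obtain ⟨j, hj⟩ := orbit_shift hou hsup hcomm ht
  have hcz : ∀ (j : ℤ) (s : D), g ((u ^ j) s) = (u ^ j) (g s) := by
    intro j s
    have : g * u ^ j = u ^ j * g := Commute.zpow_right (show Commute g u from hcomm) j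
    exact congrFun (congrArg DFunLike.coe this) s
  have hn : ∀ n : ℕ, (g ^ (2 * n)) t = (u ^ (j * n)) t := by
    intro n
    induction n with
    | zero => simp
    | succ n ih =>
      have e : g ^ (2 * (n + 1)) = g * g * g ^ (2 * n) := by
        rw [show 2 * (n + 1) = 2 + 2 * n by ring, pow_add, sq]
      rw [e, Equiv.Perm.mul_apply, Equiv.Perm.mul_apply, ih, hcz, hcz, hj, ← Equiv.Perm.mul_apply, ← zpow_add]
      congr 2
      push_cast
      ring
  have h5 := hn 5
  rw [show 2 * 5 = 10 by norm_num] at h5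
  rw [h5]
  have : u ^ (j * (5 : ℕ)) = 1 := by
    rw [← orderOf_dvd_iff_zpow_eq_one, hou]
    exact Dvd.intro_left _ rfl
  rw [this, Equiv.Perm.one_apply]

/-- an element of order 5 in a 3-transitive group of degree 13 -/
theorem five_case {H : Subgroup (Equiv.Perm D)} (hprim : IsPreprimitive H D) (h3 : IsMultiplyPretransitive H D 3)
    (hc : Fintype.card D = 13) {u : Equiv.Perm D} (hu : u ∈ H) (hou : orderOf u = 5) (hsup : u.support.card = 10) :
    alternatingGroup D ≤ H := by
  classical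
  by_contra hcon
  set C : Finset D := u.supportᶜ with hC
  have hC3 : C.card = 3 := by rw [hC, Finset.card_compl, hsup, hc]
  have memC : ∀ s, s ∉ u.support → s ∈ C := fun s hs => by rw [hC, Finset.mem_compl]; exact hs
  have huK : u ∈ PS H C := by
    refine ⟨hu, fun t ht => ?_⟩
    rw [hC, Finset.mem_compl] at ht
    exact Equiv.Perm.notMem_support.mp ht
  -- semiregular
  have hsemi : ∀ w ∈ PS H C, orderOf w = 5 → ∀ t ∈ u.support, w t ≠ t := by
    intro w hw how t ht hwt
    have hws : w.support ⊆ u.support.erase t := by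
      intro s hs
      rw [Finset.mem_erase]
      refine ⟨?_, ?_⟩
      · rintro rfl
        exact (Equiv.Perm.mem_support.mp hs) hwt
      · by_contra hc
        exact (Equiv.Perm.mem_support.mp hs) (hw.2 s (by rw [hC, Finset.mem_compl]; exact hc))
    have h1 := Finset.card_le_card hws
    rw [Finset.card_erase_of_mem ht, hsup] at h1
    obtain ⟨h2, h3⟩ := cyc_of_lt Nat.prime_five how (by omega)
    exact hcon (Cfsg.Agent.Lib.JordanCycle.jordan H hprim Nat.prime_five (by omega) h2 h3 hw.1)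
  have hsmall : ∀ Q : Sylow 5 (PS H C), Nat.card Q ≤ 10 := by
    intro Q
    have hne : u.support.Nonempty := by
      rw [← Finset.card_pos]; omega
    obtain ⟨t, ht⟩ := hne
    have : Fact (Nat.Prime 5) := ⟨by norm_num⟩
    have hmem : ∀ g : Q, ((g : PS H C) : Equiv.Perm D) t ∈ u.support := by
      intro g
      by_contra hc
      have h1 : ((g : PS H C) : Equiv.Perm D) t ∈ C := memC _ hc
      have h2 := (g : PS H C).2.2 _ h1
      have h3 := ((g : PS H C) : Equiv.Perm D).injective h2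
      rw [h3] at hc
      exact hc ht
    have hinj : Function.Injective (fun g : Q => (⟨((g : PS H C) : Equiv.Perm D) t, hmem g⟩ : u.support)) := by
      intro g g' hgg
      have hgg' : ((g : PS H C) : Equiv.Perm D) t = ((g' : PS H C) : Equiv.Perm D) t := congrArg Subtype.val hgg
      by_contra hne
      set w : Q := g'⁻¹ * g with hw
      have hw1 : w ≠ 1 := by
        rw [hw]; intro h; rw [inv_mul_eq_one] at h; exact hne h.symm
      have hwt : ((w : PS H C) : Equiv.Perm D) t = t := by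
        show (((g' : PS H C) : Equiv.Perm D)⁻¹ * ((g : PS H C) : Equiv.Perm D)) t = t
        rw [Equiv.Perm.mul_apply, hgg']
        exact Equiv.symm_apply_apply ((g' : PS H C) : Equiv.Perm D) t
      obtain ⟨k, hk⟩ := (IsPGroup.iff_orderOf.mp Q.isPGroup') w
      have hkpos : k ≠ 0 := by
        rintro rfl
        rw [pow_zero, orderOf_eq_one_iff] at hk
        exact hw1 hk
      obtain ⟨k', rfl⟩ := Nat.exists_eq_succ_of_ne_zero hkpos
      have ho : orderOf (w ^ 5 ^ k') = 5 := by
        rw [orderOf_pow' _ (by positivity), hk, pow_succ, Nat.gcd_eq_right (Dvd.intro _ rfl),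
          Nat.mul_div_cancel_left _ (by positivity)]
      have ho2 : orderOf (((w ^ 5 ^ k' : Q) : PS H C) : Equiv.Perm D) = 5 := by
        rw [Subgroup.orderOf_coe, Subgroup.orderOf_coe, ho]
      apply hsemi _ ((w ^ 5 ^ k' : Q) : PS H C).2 ho2 t ht
      have : ((((w ^ 5 ^ k' : Q) : PS H C) : Equiv.Perm D)) = (((w : PS H C) : Equiv.Perm D)) ^ 5 ^ k' := by
        push_cast; rfl
      rw [this]
      exact Equiv.Perm.pow_apply_eq_self_of_apply_eq_self hwt _
    have h1 := Nat.card_le_card_of_injective _ hinj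
    rw [Nat.card_eq_fintype_card (α := u.support), Fintype.card_coe, hsup] at h1
    exact h1
  -- three fixed points
  obtain ⟨a, b, c, hab, hac, hbc, hCabc⟩ := Finset.card_eq_three.mp hC3
  set τ : Equiv.Perm D := Equiv.swap a b * Equiv.swap a c with hτ
  have hτ3 : τ.IsThreeCycle := Equiv.Perm.isThreeCycle_swap_mul_swap_same hab hac hbc
  have hτC : ∀ t ∈ C, τ t ∈ C := by
    intro t ht
    rw [hCabc] at ht ⊢
    simp only [Finset.mem_insert, Finset.mem_singleton] at ht ⊢
    rw [hτ, Equiv.Perm.mul_apply]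
    rcases ht with rfl | rfl | rfl
    · rw [Equiv.swap_apply_left, Equiv.swap_apply_of_ne_of_ne hac.symm hbc.symm]
      exact Or.inr (Or.inr rfl)
    · rw [Equiv.swap_apply_of_ne_of_ne hab.symm hbc, Equiv.swap_apply_right]
      exact Or.inl rfl
    · rw [Equiv.swap_apply_right, Equiv.swap_apply_left]
      exact Or.inr (Or.inl rfl)
  have hτout : ∀ t, t ∉ C → τ t = t := by
    intro t ht
    rw [hCabc] at ht
    simp only [Finset.mem_insert, Finset.mem_singleton, not_or] at ht
    rw [hτ, Equiv.Perm.mul_apply, Equiv.swap_apply_of_ne_of_ne ht.1 ht.2.2, Equiv.swap_apply_of_ne_of_ne ht.1 ht.2.1]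
  obtain ⟨h, hh, hhτ⟩ := Cfsg.Agent.Lib.JordanCycle.induce hC3 h3 τ
  have hhC : ∀ x ∈ C, h⁻¹ x ∈ C := by
    intro x hx
    have himg : C.image h = C := by
      apply Finset.eq_of_subset_of_card_le
      · intro y hy
        obtain ⟨z, hz, rfl⟩ := Finset.mem_image.mp hy
        rw [hhτ z hz]; exact hτC z hz
      · rw [Finset.card_image_of_injective _ h.injective]
    rw [← himg, Finset.mem_image] at hx
    obtain ⟨z, hz, rfl⟩ := hx
    have : h⁻¹ (h z) = z := Equiv.symm_apply_apply h z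
    rw [this]; exact hz
  have hconj : h * u * h⁻¹ ∈ PS H C := by
    refine ⟨H.mul_mem (H.mul_mem hh hu) (H.inv_mem hh), fun x hx => ?_⟩
    rw [Equiv.Perm.mul_apply, Equiv.Perm.mul_apply, huK.2 _ (hhC x hx)]
    exact Equiv.apply_symm_apply h x
  have hord' : orderOf (h * u * h⁻¹) = 5 := by
    rw [← hou]
    exact orderOf_injective (MulAut.conj h).toMonoidHom (MulAut.conj h).injective u
  obtain ⟨k, hk⟩ := conj_of_small hsmall (u := ⟨u, huK⟩) (u' := ⟨h * u * h⁻¹, hconj⟩)
    (by rw [Subgroup.orderOf_mk, hou]) (by rw [Subgroup.orderOf_mk, hord'])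
  have hk' : (k : Equiv.Perm D) * (h * u * h⁻¹) * (k : Equiv.Perm D)⁻¹ ∈ Subgroup.zpowers u := by
    rw [Subgroup.mem_zpowers_iff] at hk ⊢
    obtain ⟨i, hi⟩ := hk
    exact ⟨i, by simpa using congrArg Subtype.val hi⟩
  set w : Equiv.Perm D := (k : Equiv.Perm D) * h with hw
  have hwH : w ∈ H := H.mul_mem k.2.1 hh
  have hwu : w * u * w⁻¹ ∈ Subgroup.zpowers u := by
    have : w * u * w⁻¹ = (k : Equiv.Perm D) * (h * u * h⁻¹) * (k : Equiv.Perm D)⁻¹ := by rw [hw]; group
    rw [this]; exact hk'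
  have hwC : ∀ t ∈ C, w t = τ t := by
    intro t ht
    rw [hw, Equiv.Perm.mul_apply, hhτ t ht]
    exact k.2.2 _ (hτC t ht)
  have hwn : ∀ n : ℕ, ∀ t ∈ C, (w ^ n) t = (τ ^ n) t ∧ (τ ^ n) t ∈ C := by
    intro n
    induction n with
    | zero => intro t ht; exact ⟨rfl, ht⟩
    | succ n ih =>
      intro t ht
      obtain ⟨h1, h2⟩ := ih t ht
      rw [pow_succ', pow_succ', Equiv.Perm.mul_apply, Equiv.Perm.mul_apply, h1]
      exact ⟨hwC _ h2, hτC _ h2⟩
  have hτ40 : τ ^ 40 = τ := by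
    have h1 : τ ^ 3 = 1 := by rw [← hτ3.orderOf]; exact pow_orderOf_eq_one τ
    calc τ ^ 40 = (τ ^ 3) ^ 13 * τ := by rw [← pow_mul, ← pow_succ]
      _ = τ := by rw [h1, one_pow, one_mul]
  have hfin : w ^ 40 = τ := by
    ext t
    by_cases ht : t ∈ C
    · rw [(hwn 40 t ht).1, hτ40]
    · rw [hτout t ht]
      have ht' : u t ≠ t := by
        rw [hC, Finset.mem_compl, not_not] at ht
        exact Equiv.Perm.mem_support.mp ht
      have := pow_ten hou hsup (commute_pow_four hou hwu) ht'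
      rwa [← pow_mul] at this
  exact hcon (alternatingGroup_le_of_isPreprimitive_of_isThreeCycle_mem hprim hτ3 (hfin ▸ H.pow_mem hwH 40))

end Cfsg.Agent.Lib.H1AmGen
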