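import Cfsg.Agent.Lib.Isolated
import Cfsg.Agent.Lib.Layer
import Cfsg.Agent.Lib.Fitting
import Cfsg.Agent.Lib.AmbFStar
import Cfsg.Agent.Lib.MinAct
import Cfsg.Agent.Lib.Transfer
import Cfsg.Agent.Lib.RelSylow
import Cfsg.Agent.Lib.Subnormal
import Cfsg.Agent.Lib.SubgroupTools
import Cfsg.Prelude.Def_CaseTheorems
import Cfsg.Prelude.Def_IsolatedElements

/-!
# Isolated elements of odd prime order in groups of `p`-rank at most two (helper1)
-/

set_option autoImplicit false
set_option linter.all false

namespace Cfsg.Agent.Lib.H1IsoRank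

open Cfsg Subgroup Cfsg.Agent.Lib.Components
open scoped Pointwise

universe u

variable {G : Type u} [Group G] [Finite G] {p : ℕ} [hp : Fact p.Prime]

omit [Finite G] hp in
theorem isIsolated_conj {s : G} (hs : IsIsolated s) (h : G) : IsIsolated (h * s * h⁻¹) := by
  intro g hc
  have h1 := hs (h⁻¹ * g * h) (by
    have h2 : Commute (h⁻¹ * (h * s * h⁻¹) * h) (h⁻¹ * (g * (h * s * h⁻¹) * g⁻¹) * h) := by
      have h3 := hc
      unfold Commute SemiconjBy at h3 ⊢
      calc h⁻¹ * (h * s * h⁻¹) * h * (h⁻¹ * (g * (h * s * h⁻¹) * g⁻¹) * h) =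
          h⁻¹ * ((h * s * h⁻¹) * (g * (h * s * h⁻¹) * g⁻¹)) * h := by group
        _ = h⁻¹ * ((g * (h * s * h⁻¹) * g⁻¹) * (h * s * h⁻¹)) * h := by rw [h3]
        _ = _ := by group
    have e1 : h⁻¹ * (h * s * h⁻¹) * h = s := by group
    have e2 : h⁻¹ * (g * (h * s * h⁻¹) * g⁻¹) * h = h⁻¹ * g * h * s * (h⁻¹ * g * h)⁻¹ := by group
    rwa [e1, e2] at h2)
  calc g * (h * s * h⁻¹) * g⁻¹ = h * (h⁻¹ * g * h * s * (h⁻¹ * g * h)⁻¹) * h⁻¹ := by group
    _ = h * s * h⁻¹ := by rw [h1]

/-- if every element of order `p` of a Sylow subgroup lies in `⟨s⟩ Z(G)`, `s` isolated, then `G` is `p`-nilpotent -/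
theorem npc_of_isolated (hp2 : p ≠ 2) {s : G} (hs : IsIsolated s) (hsp : s ^ p = 1) (T : Sylow p G)
    (hT : ∀ u ∈ (T : Subgroup G), u ^ p = 1 → ∃ j : ℤ, ∃ z ∈ center G, u = s ^ j * z) :
    HasNormalPComplement p G := by
  rw [Cfsg.Agent.Lib.Transfer.hasNormalPComplement_iff_forall_centralizer]
  intro Q hQ g hg hgo
  obtain ⟨T', hT'⟩ := hQ.exists_le_sylow
  obtain ⟨h, hh⟩ := MulAction.exists_smul_eq G T T'
  set s' := h * s * h⁻¹ with hs'
  have hs'i : IsIsolated s' := isIsolated_conj hs h
  have hs'p : s' ^ p = 1 := by rw [hs', conj_pow, hsp]; group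
  have hU : ∀ u ∈ Q, u ^ p = 1 → ∃ j : ℤ, ∃ z ∈ center G, u = s' ^ j * z := by
    intro u hu hup
    have h1 : h⁻¹ * u * h ∈ (T : Subgroup G) := by
      have h2 : u ∈ (T' : Subgroup G) := hT' hu
      rw [← hh, Sylow.coe_subgroup_smul, mem_pointwise_smul_iff_inv_smul_mem] at h2
      have h3 : (MulAut.conj h)⁻¹ • u = h⁻¹ * u * h := by
        rw [← map_inv, MulAut.smul_def, MulAut.conj_apply, inv_inv]
      rwa [h3] at h2
    have h2 : (h⁻¹ * u * h) ^ p = 1 := by
      have : h⁻¹ * u * h = h⁻¹ * u * (h⁻¹)⁻¹ := by group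
      rw [this, conj_pow, hup]; group
    obtain ⟨j, z, hz, he⟩ := hT _ h1 h2
    refine ⟨j, z, hz, ?_⟩
    have h3 : h * z * h⁻¹ = z := by
      rw [mem_center_iff.1 hz h, mul_inv_cancel_right]
    calc u = h * (h⁻¹ * u * h) * h⁻¹ := by group
      _ = (h * s ^ j * h⁻¹) * (h * z * h⁻¹) := by rw [he]; group
      _ = s' ^ j * z := by rw [h3, ← conj_zpow]
  clear_value s'
  have key := MinAct.le_centralizer_of_pow_eq_one hp2 Q (zpowers g) hQ (by rwa [Nat.card_zpowers])
    (zpowers_le.2 hg) (by
      intro u hu hup a ha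
      have haN : a ∈ normalizer (Q : Set G) := (zpowers_le.2 hg) ha
      obtain ⟨j, z, hz, he⟩ := hU u hu hup
      have hu' : a * u * a⁻¹ ∈ Q := (mem_normalizer_iff.1 haN u).1 hu
      obtain ⟨k, z', hz', he'⟩ := hU _ hu' (by rw [conj_pow, hup]; group)
      have hzc : ∀ y : G, Commute z y := fun y => (mem_center_iff.1 hz y).symm
      have hz'c : ∀ y : G, Commute z' y := fun y => (mem_center_iff.1 hz' y).symm
      have hmain : a * u * a⁻¹ = u := by
        by_cases hj : s' ^ j = 1
        · rw [he, hj, one_mul, ← (hzc a).eq, mul_inv_cancel_right]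
        · -- `s'` commutes with its conjugate
          have h1 : (a * s' * a⁻¹) ^ j = s' ^ k * z' * z⁻¹ := by
            rw [conj_zpow]
            have h2 : a * u * a⁻¹ = a * s' ^ j * a⁻¹ * z := by
              rw [he, ← mul_assoc a, mul_assoc (a * s' ^ j), (hzc a⁻¹).eq, ← mul_assoc]
            rw [h2] at he'
            rw [← he']; group
          have h2 : Commute s' ((a * s' * a⁻¹) ^ j) := by
            rw [h1]
            exact (((Commute.refl s').zpow_right k).mul_right (hz'c s').symm).mul_right (hzc s').symm.inv_right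
          have hwp : (a * s' * a⁻¹) ^ p = 1 := by rw [conj_pow, hs'p]; group
          -- `j` is invertible mod `p`
          have hjp : IsCoprime j (p : ℤ) := by
            rw [Int.isCoprime_iff_gcd_eq_one, Int.gcd_comm]
            have h3 := (Nat.coprime_primes hp.out hp.out)
            by_contra hne
            have h4 : (p : ℤ) ∣ j := by
              have h5 : Nat.gcd p j.natAbs ≠ 1 := by simpa [Int.gcd] using hne
              have h6 : p ∣ j.natAbs := by
                by_contra h7
                exact h5 ((hp.out.coprime_iff_not_dvd).2 h7)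
              exact Int.natCast_dvd.2 h6
            obtain ⟨m, rfl⟩ := h4
            apply hj
            rw [zpow_mul, zpow_natCast, hs'p, one_zpow]
          obtain ⟨c, d, hcd⟩ := hjp
          have h3 : a * s' * a⁻¹ = ((a * s' * a⁻¹) ^ j) ^ c := by
            have h4 : (a * s' * a⁻¹) ^ (c * j + d * (p : ℤ)) = a * s' * a⁻¹ := by rw [hcd, zpow_one]
            rw [zpow_add, mul_comm d, zpow_mul _ (p : ℤ), zpow_natCast, hwp, one_zpow, mul_one, mul_comm,
              zpow_mul] at h4
            exact h4.symm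
          have h4 : Commute s' (a * s' * a⁻¹) := by
            rw [h3]; exact h2.zpow_right c
          have h5 := hs'i a h4
          rw [he]
          calc a * (s' ^ j * z) * a⁻¹ = (a * s' ^ j * a⁻¹) * (a * z * a⁻¹) := by group
            _ = (a * s' * a⁻¹) ^ j * (a * z * a⁻¹) := by rw [conj_zpow]
            _ = s' ^ j * z := by rw [h5, ← (hzc a).eq, mul_inv_cancel_right]
      exact mul_inv_eq_iff_eq_mul.1 hmain)
  exact key (mem_zpowers g)

omit hp in
theorem card_sup_zpowers {A : Subgroup G} {c : G} (hc : ∀ a ∈ A, Commute a c) (hp' : p.Prime)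
    (hcp : c ^ p = 1) (hcA : c ∉ A) : Nat.card (A ⊔ zpowers c : Subgroup G) = Nat.card A * p := by
  have ho : orderOf c = p := by
    rcases (Nat.dvd_prime hp').1 (orderOf_dvd_of_pow_eq_one hcp) with h | h
    · exfalso
      rw [orderOf_eq_one_iff] at h
      exact hcA (h ▸ one_mem _)
    · exact h
  have hN : zpowers c ≤ normalizer (A : Set G) := by
    refine le_trans ?_ (centralizer_le_normalizer' A)
    rw [zpowers_le, mem_centralizer_iff]
    exact hc
  have hd : Disjoint A (zpowers c) := by
    rw [disjoint_iff]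
    by_contra hne
    haveI : Nontrivial (A ⊓ zpowers c : Subgroup G) := (nontrivial_iff_ne_bot _).2 hne
    have h1 : A ⊓ zpowers c = zpowers c := by
      apply eq_of_le_of_card_ge inf_le_right
      have h2 := card_dvd_of_le (inf_le_right : A ⊓ zpowers c ≤ zpowers c)
      rw [Nat.card_zpowers, ho] at h2 ⊢
      rcases (Nat.dvd_prime hp').1 h2 with h3 | h3
      · exact absurd h3 (Finite.one_lt_card).ne'
      · exact h3.ge
    exact hcA ((inf_eq_right.1 h1) (mem_zpowers c))
  rw [SubgroupTools.card_sup_of_disjoint hN hd, Nat.card_zpowers, ho]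

/-- the rank relation -/
theorem rank_rel (hr : PRankLE p 2 G) {a b c : G} (hab : Commute a b) (hac : Commute a c) (hbc : Commute b c)
    (hap : a ^ p = 1) (hbp : b ^ p = 1) (hcp : c ^ p = 1) (ha : a ≠ 1) (hb : b ∉ zpowers a) :
    ∃ i j : ℤ, c = a ^ i * b ^ j := by
  have h1 : Nat.card (⊥ ⊔ zpowers a : Subgroup G) = Nat.card (⊥ : Subgroup G) * p :=
    card_sup_zpowers (fun x hx => by rw [mem_bot.1 hx]; exact Commute.one_left _) hp.out hap
      (fun h => ha (mem_bot.1 h))
  rw [bot_sup_eq, card_bot, one_mul] at h1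
  have h2 : Nat.card (zpowers a ⊔ zpowers b : Subgroup G) = Nat.card (zpowers a) * p :=
    card_sup_zpowers (fun x hx => by
      obtain ⟨k, rfl⟩ := mem_zpowers_iff.1 hx
      exact hab.zpow_left k) hp.out hbp hb
  have hcen : zpowers a ⊔ zpowers b ≤ centralizer ({c} : Set G) := by
    refine sup_le (zpowers_le.2 ?_) (zpowers_le.2 ?_)
    · rw [mem_centralizer_singleton_iff]; exact hac
    · rw [mem_centralizer_singleton_iff]; exact hbc
  have hcab : c ∈ zpowers a ⊔ zpowers b := by
    by_contra hcn
    have h3 : Nat.card ((zpowers a ⊔ zpowers b) ⊔ zpowers c : Subgroup G) =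
        Nat.card (zpowers a ⊔ zpowers b : Subgroup G) * p :=
      card_sup_zpowers (fun x hx => by
        have := hcen hx
        rw [mem_centralizer_singleton_iff] at this
        exact this) hp.out hcp hcn
    rw [h2, h1] at h3
    have hclos : ((zpowers a ⊔ zpowers b) ⊔ zpowers c : Subgroup G) = closure {a, b, c} := by
      rw [zpowers_eq_closure, zpowers_eq_closure, zpowers_eq_closure, ← Subgroup.closure_union,
        ← Subgroup.closure_union]
      congr 1
      ext x
      simp only [Set.mem_union, Set.mem_singleton_iff, Set.mem_insert_iff]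
      tauto
    have hcomm : ∀ x ∈ ({a, b, c} : Set G), ∀ y ∈ ({a, b, c} : Set G), x * y = y * x := by
      rintro x (rfl | rfl | rfl) y (rfl | rfl | rfl)
      exacts [rfl, hab, hac, hab.symm, rfl, hbc, hac.symm, hbc.symm, rfl]
    have hA := Subgroup.isMulCommutative_closure hcomm
    have h4 := hr (closure {a, b, c}) hA (by
      intro x hx
      induction hx using closure_induction with
      | mem x hx =>
        rcases hx with rfl | rfl | rfl
        exacts [hap, hbp, hcp]
      | one => exact one_pow p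
      | mul x y hx hy h1 h2 =>
        have h5 : Commute x y := congrArg Subtype.val (hA.is_comm.comm ⟨x, hx⟩ ⟨y, hy⟩)
        rw [h5.mul_pow, h1, h2, one_mul]
      | inv x hx h1 => rw [inv_pow, h1, inv_one])
    rw [← hclos, h3] at h4
    have := hp.out.two_le
    have h5 : p * p * p ≤ p * p := by rw [← pow_two p]; simpa [pow_two] using h4
    nlinarith [mul_pos hp.out.pos hp.out.pos]
  rw [mem_sup_of_commute (by
    rw [zpowers_le, mem_centralizer_iff]
    intro y hy
    obtain ⟨k, rfl⟩ := mem_zpowers_iff.1 hy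
    exact (hab.symm.zpow_left k)) ] at hcab
  obtain ⟨y, hy, z, hz, rfl⟩ := hcab
  obtain ⟨i, rfl⟩ := mem_zpowers_iff.1 hy
  obtain ⟨j, rfl⟩ := mem_zpowers_iff.1 hz
  exact ⟨i, j, rfl⟩

/-- a component of a group with `O_{p'} = 1` is not `p`-nilpotent -/
theorem component_not_npc (hcore : pPrimeCore p G = ⊥) {L : Subgroup G} (hL : IsComponent L) :
    ¬ HasNormalPComplement p ↥L := by
  intro h
  rw [PNilp.hasNormalPComplement_iff_pResidual, AmbFStar.pResidual_of_perfect hL.2.1, card_top] at h
  have h1 := Layer.subnormal_coprime_le_pPrimeCore (p := p) hL.1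
    (by rw [Nat.coprime_comm, hp.out.coprime_iff_not_dvd]; exact h)
  rw [hcore, le_bot_iff] at h1
  exact component_ne_bot hL h1

theorem exists_sylow_inf {L : Subgroup G} (hL : L.IsSubnormal) (P : Sylow p G) :
    ∃ T : Sylow p ↥L, (T : Subgroup ↥L) = (P : Subgroup G).subgroupOf L := by
  have h1 : IsPGroup p ((P : Subgroup G).subgroupOf L) := P.2.comap_subtype
  have h2 : ¬ p ∣ ((P : Subgroup G).subgroupOf L).index := by
    have h3 := Subnormal.not_dvd_relIndex_sylow p hL P
    rwa [inf_relIndex_right] at h3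
  exact ⟨h1.toSylow h2, rfl⟩

/-- noncentral elements of order `p` in a component -/
theorem exists_noncentral (hp2 : p ≠ 2) (hcore : pPrimeCore p G = ⊥) (P : Sylow p G) {L : Subgroup G}
    (hL : IsComponent L) : ∃ t ∈ (P : Subgroup G) ⊓ L, t ^ p = 1 ∧ t ∉ centralizer (L : Set G) := by
  by_contra hcon
  push Not at hcon
  apply component_not_npc hcore hL
  obtain ⟨T, hT⟩ := exists_sylow_inf hL.1 P
  refine npc_of_isolated hp2 (s := (1 : ↥L)) ?_ (one_pow p) T ?_
  · intro g _
    group
  · intro u hu hup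
    rw [hT, mem_subgroupOf] at hu
    have h1 := hcon u (mem_inf.2 ⟨hu, u.2⟩) (by
      have := congrArg Subtype.val hup
      simpa using this)
    refine ⟨0, u, ?_, by simp⟩
    rw [mem_center_iff]
    intro g
    apply Subtype.ext
    exact (mem_centralizer_iff.1 h1) g g.2

theorem mem_zpowers_of (hp2 : p ≠ 2) (hcore : pPrimeCore p G = ⊥) (hr : PRankLE p 2 G) (P : Sylow p G)
    {x : G} (hx : x ^ p = 1) (hiso : IsIsolated x) (hxP : x ∈ (P : Subgroup G)) {L : Subgroup G}
    (hL : IsComponent L) {r : G} (hrP : r ∈ (P : Subgroup G)) (hrp : r ^ p = 1) (hr1 : r ≠ 1)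
    (hrL : r ∈ centralizer (L : Set G)) : x ∈ zpowers r := by
  have hxc : ∀ u ∈ (P : Subgroup G), Commute x u := fun u hu =>
    Isolated.commute_of_mem_pgroup hiso P.2 hxP hu
  have hrc : ∀ u ∈ L, Commute r u := fun u hu => ((mem_centralizer_iff.1 hrL) u hu).symm
  obtain ⟨t, ht, htp, htc⟩ := exists_noncentral hp2 hcore P hL
  obtain ⟨htP, htL⟩ := mem_inf.1 ht
  have hcenr : ∀ i : ℤ, r ^ i ∈ centralizer (L : Set G) := fun i => zpow_mem hrL i
  have htr : t ∉ zpowers r := by
    intro h
    obtain ⟨i, rfl⟩ := mem_zpowers_iff.1 h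
    exact htc (hcenr i)
  obtain ⟨i, j, hij⟩ := rank_rel hr (hrc t htL) (hxc r hrP).symm (hxc t htP).symm hrp htp hx hr1 htr
  by_cases htj : t ^ j = 1
  · rw [hij, htj, mul_one]
    exact zpow_mem (mem_zpowers r) i
  exfalso
  set s := t ^ j with hs
  have hsL : s ∈ L := zpow_mem htL j
  have hsP : s ∈ (P : Subgroup G) := zpow_mem htP j
  have hsp : s ^ p = 1 := by
    rw [hs, ← zpow_natCast, ← zpow_mul, mul_comm, zpow_mul, zpow_natCast, htp, one_zpow]
  have hsx : s = (r ^ i)⁻¹ * x := by rw [hij]; group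
  have hsc : s ∉ centralizer (L : Set G) := by
    intro h
    apply htc
    -- `t` is a power of `s`
    have hto : orderOf t = p := by
      rcases (Nat.dvd_prime hp.out).1 (orderOf_dvd_of_pow_eq_one htp) with h' | h'
      · exfalso
        rw [orderOf_eq_one_iff] at h'
        apply htj; rw [hs, h', one_zpow]
      · exact h'
    have hso : orderOf s = p := by
      rcases (Nat.dvd_prime hp.out).1 (orderOf_dvd_of_pow_eq_one hsp) with h' | h'
      · exact absurd (orderOf_eq_one_iff.1 h') htj
      · exact h'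
    have h1 : zpowers s = zpowers t := by
      apply eq_of_le_of_card_ge
      · rw [zpowers_le]; exact zpow_mem (mem_zpowers t) j
      · rw [Nat.card_zpowers, Nat.card_zpowers, hto, hso]
    have h2 : t ∈ zpowers s := by rw [h1]; exact mem_zpowers t
    exact (zpowers_le.2 h) h2
  have hsr : s ∉ zpowers r := by
    intro h
    obtain ⟨i, hi⟩ := mem_zpowers_iff.1 h
    exact hsc (hi ▸ hcenr i)
  clear_value s
  apply component_not_npc hcore hL
  obtain ⟨T, hT⟩ := exists_sylow_inf hL.1 P
  refine npc_of_isolated hp2 (s := (⟨s, hsL⟩ : ↥L)) ?_ (Subtype.ext hsp) T ?_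
  · intro g hg
    apply Subtype.ext
    show (g : G) * s * (g : G)⁻¹ = s
    have hcg : Commute s ((g : G) * s * (g : G)⁻¹) := congrArg Subtype.val hg
    have hri : ∀ k : ℤ, Commute (r ^ k) (g : G) := fun k => (hrc g g.2).zpow_left k
    have h1 : (g : G) * x * (g : G)⁻¹ = r ^ i * ((g : G) * s * (g : G)⁻¹) := by
      rw [hij]
      calc (g : G) * (r ^ i * s) * (g : G)⁻¹ = ((g : G) * r ^ i) * s * (g : G)⁻¹ := by group
        _ = r ^ i * ((g : G) * s * (g : G)⁻¹) := by rw [← (hri i).eq]; group
    have h2 : Commute x ((g : G) * x * (g : G)⁻¹) := by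
      rw [h1]
      have hrm : ∀ y ∈ L, Commute (r ^ i) y := fun y hy => (hrc y hy).zpow_left i
      have hgs : (g : G) * s * (g : G)⁻¹ ∈ L := mul_mem (mul_mem g.2 hsL) (inv_mem g.2)
      rw [hij]
      refine Commute.mul_left (Commute.mul_right (Commute.refl _) (hrm _ hgs)) ?_
      exact Commute.mul_right (hrm _ hsL).symm hcg
    have h3 := hiso g h2
    rw [h1] at h3
    calc (g : G) * s * (g : G)⁻¹ = (r ^ i)⁻¹ * (r ^ i * ((g : G) * s * (g : G)⁻¹)) := by group
      _ = (r ^ i)⁻¹ * x := by rw [h3]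
      _ = s := hsx.symm
  · intro u hu hup
    rw [hT, mem_subgroupOf] at hu
    have hup' : (u : G) ^ p = 1 := by
      have := congrArg Subtype.val hup
      simpa using this
    have hsu : Commute s (u : G) := by
      rw [hsx]
      exact Commute.mul_left ((hrc u u.2).zpow_left i).inv_left (hxc u hu)
    obtain ⟨k, l, hkl⟩ := rank_rel hr (hrc s hsL) (hrc u u.2) hsu hrp hsp hup' hr1 hsr
    have hrk : r ^ k ∈ L := by
      have : r ^ k = u * (s ^ l)⁻¹ := by rw [hkl]; group
      rw [this]
      exact mul_mem u.2 (inv_mem (zpow_mem hsL l))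
    refine ⟨l, ⟨r ^ k, hrk⟩, ?_, ?_⟩
    · rw [mem_center_iff]
      intro g
      apply Subtype.ext
      exact ((hrc g g.2).zpow_left k).symm
    · apply Subtype.ext
      show (u : G) = (((⟨s, hsL⟩ : ↥L) ^ l : ↥L) : G) * r ^ k
      rw [hkl]
      push_cast
      exact ((hrc s hsL).zpow_left k).zpow_right l

theorem main (hp2 : p ≠ 2) (hcore : pPrimeCore p G = ⊥) (hr : PRankLE p 2 G) (x : G) (hx : orderOf x = p)
    (hiso : IsIsolated x) (hnc : x ∉ center G) :
    IsSimpleGroup ↥(generalizedFittingSubgroup G) ∧ ¬ IsMulCommutative ↥(generalizedFittingSubgroup G) := by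
  have hxp : x ^ p = 1 := by rw [← hx, pow_orderOf_eq_one]
  have hx1 : x ≠ 1 := by
    rintro rfl
    exact hnc (one_mem _)
  have hzx : IsPGroup p (zpowers x) := IsPGroup.of_card (n := 1) (by rw [Nat.card_zpowers, hx, pow_one])
  obtain ⟨P, hP⟩ := hzx.exists_le_sylow
  have hxP : x ∈ (P : Subgroup G) := hP (mem_zpowers x)
  have hxc : ∀ u ∈ (P : Subgroup G), Commute x u := fun u hu =>
    Isolated.commute_of_mem_pgroup hiso P.2 hxP hu
  have hRp : IsPGroup p (pCore p G) := H23Basic.isPGroup_pCore p
  haveI hRn : (pCore p G).Normal := inferInstance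
  have hxR : x ∉ pCore p G := by
    intro h
    apply hnc
    rw [mem_center_iff]
    intro g
    have h1 := hiso g (Isolated.commute_of_mem_pgroup hiso hRp h (hRn.conj_mem _ h g))
    exact mul_inv_eq_iff_eq_mul.1 h1
  have hfit : fittingSubgroup G = pCore p G := Fitting.fittingSubgroup_eq_pCore p hcore
  have hRP : pCore p G ≤ (P : Subgroup G) := IsPGroup.le_sylow_of_normal hRp P
  have hxRc : x ∈ centralizer (pCore p G : Set G) := by
    rw [mem_centralizer_iff]
    intro u hu
    exact (hxc u (hRP hu)).symm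
  -- there is a component
  obtain ⟨L, hL⟩ : ∃ L : Subgroup G, IsComponent L := by
    by_contra hno
    push Not at hno
    have h1 : layer G = ⊥ := by
      unfold layer
      rw [eq_bot_iff]
      exact sSup_le fun K hK => absurd hK (hno K)
    have h2 : generalizedFittingSubgroup G = pCore p G := by
      unfold generalizedFittingSubgroup
      rw [h1, hfit, bot_sup_eq]
    apply hxR
    have h3 := Layer.centralizer_genFitting_le (G := G)
    rw [h2] at h3
    exact h3 hxRc
  -- the `p`-core is trivial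
  have hR : pCore p G = ⊥ := by
    by_contra hne
    haveI : Nontrivial (pCore p G) := (nontrivial_iff_ne_bot _).2 hne
    obtain ⟨k, hk⟩ := IsPGroup.iff_card.1 hRp
    have hd : p ∣ Nat.card (pCore p G) := by
      have h1 : 1 < Nat.card (pCore p G) := Finite.one_lt_card
      rw [hk] at h1 ⊢
      rcases Nat.eq_zero_or_pos k with h0 | h0
      · rw [h0, pow_zero] at h1; omega
      · exact dvd_pow_self p h0.ne'
    obtain ⟨r, hro⟩ := exists_prime_orderOf_dvd_card' p hd
    have hrR : (r : G) ∈ pCore p G := r.2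
    have hro' : orderOf (r : G) = p := by rw [Subgroup.orderOf_coe, hro]
    have h1 := mem_zpowers_of hp2 hcore hr P hxp hiso hxP hL (hRP hrR)
      (orderOf_dvd_iff_pow_eq_one.1 hro'.dvd) (by
        intro h
        rw [h, orderOf_one] at hro'
        exact hp.out.one_lt.ne hro') (by
        have h2 := (Layer.component_le_layer hL).trans (Layer.layer_le_centralizer_fitting (G := G))
        rw [hfit] at h2
        exact (le_centralizer_comm h2) hrR)
    exact hxR ((zpowers_le.2 hrR) h1)
  have hfit' : fittingSubgroup G = ⊥ := by rw [hfit, hR]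
  have hcenL : ∀ L : Subgroup G, IsComponent L → L ⊓ centralizer (L : Set G) = ⊥ := by
    intro L hL
    have h1 : (L ⊓ centralizer (L : Set G)).IsSubnormal := by
      have h2 : (L ⊓ centralizer (L : Set G)) = (center ↥L).map L.subtype := by
        ext y
        constructor
        · intro hy
          obtain ⟨h3, h4⟩ := mem_inf.1 hy
          refine ⟨⟨y, h3⟩, ?_, rfl⟩
          rw [SetLike.mem_coe, mem_center_iff]
          intro g
          apply Subtype.ext
          exact (mem_centralizer_iff.1 h4) g g.2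
        · rintro ⟨y, hy, rfl⟩
          refine mem_inf.2 ⟨y.2, ?_⟩
          rw [mem_centralizer_iff]
          intro g hg
          exact congrArg Subtype.val ((mem_center_iff.1 hy) ⟨g, hg⟩)
      rw [h2]
      exact Layer.isSubnormal_of_characteristic hL.1 inferInstance
    have h2 := Layer.subnormal_nilpotent_le_fitting h1 (Layer.isNilpotent_of_le_centralizer (by
      refine inf_le_right.trans ?_
      exact centralizer_le (inf_le_left (a := L))))
    rw [hfit', le_bot_iff] at h2
    exact h2
  -- uniqueness of the component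
  have huniq : ∀ K : Subgroup G, IsComponent K → K = L := by
    intro K hK
    rcases component_eq_or_le_centralizer hK hL with h | h
    · exact h
    · exfalso
      obtain ⟨t, ht, htp, htc⟩ := exists_noncentral hp2 hcore P hL
      obtain ⟨u, hu, hup, huc⟩ := exists_noncentral hp2 hcore P hK
      have h1 := mem_zpowers_of hp2 hcore hr P hxp hiso hxP hL (mem_inf.1 hu).1 hup
        (by rintro rfl; exact huc (one_mem _)) (h (mem_inf.1 hu).2)
      have h2 := mem_zpowers_of hp2 hcore hr P hxp hiso hxP hK (mem_inf.1 ht).1 htp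
        (by rintro rfl; exact htc (one_mem _)) ((le_centralizer_comm h) (mem_inf.1 ht).2)
      have hxK : x ∈ K := (zpowers_le.2 (mem_inf.1 hu).2) h1
      have hxL : x ∈ L := (zpowers_le.2 (mem_inf.1 ht).2) h2
      have h3 : x ∈ L ⊓ centralizer (L : Set G) := mem_inf.2 ⟨hxL, h hxK⟩
      rw [hcenL L hL, mem_bot] at h3
      exact hx1 h3
  have hF : generalizedFittingSubgroup G = L := by
    unfold generalizedFittingSubgroup layer
    rw [hfit', sup_bot_eq]
    apply le_antisymm
    · apply sSup_le
      intro K hK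
      rw [huniq K hK]
    · exact le_sSup hL
  rw [hF]
  have hcb : center ↥L = ⊥ := by
    rw [eq_bot_iff]
    intro y hy
    have h1 : (y : G) ∈ L ⊓ centralizer (L : Set G) := by
      refine mem_inf.2 ⟨y.2, ?_⟩
      rw [mem_centralizer_iff]
      intro g hg
      exact congrArg Subtype.val ((mem_center_iff.1 hy) ⟨g, hg⟩)
    rw [hcenL L hL, mem_bot] at h1
    exact mem_bot.2 (Subtype.ext h1)
  refine ⟨?_, not_isMulCommutative_of_quasisimple hL.2⟩
  have h1 := hL.2.2
  have e : (↥L ⧸ center ↥L) ≃* ↥L :=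
    (QuotientGroup.quotientMulEquivOfEq hcb).trans (QuotientGroup.quotientBot)
  haveI := h1
  exact MulEquiv.isSimpleGroup e.symm

end Cfsg.Agent.Lib.H1IsoRank
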