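import Mathlib
import Cfsg.Agent.Lib.FrobDvd

/-!
Counting elements of given order: if `|G| = q (q² - 1)`, the numbers of elements of order `n` are
`0`, `1`, `q² - 1` or divisible by `q`, and one of them is `q²`, then every element has order `p` or
order dividing `q² - 1` (helper1).
-/

set_option autoImplicit false

namespace Cfsg.Agent.Lib.H1NseA

open Finset

/-- number of elements of order `n` -/
noncomputable def mo (G : Type*) [Group G] (n : ℕ) : ℕ := Nat.card {g : G // orderOf g = n}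

variable {G : Type*} [Group G] [Finite G]

theorem mo_even {n : ℕ} (hn : 3 ≤ n) : Even (mo G n) := by
  classical
  have := Fintype.ofFinite G
  let f : {g : G // orderOf g = n} → {g : G // orderOf g = n} := fun g => ⟨(g : G)⁻¹, by rw [orderOf_inv]; exact g.2⟩
  have hf : ∀ g, f (f g) = g := fun g => Subtype.ext (inv_inv _)
  have hne : ∀ g, f g ≠ g := by
    intro g h
    have h1 : (g : G)⁻¹ = g := congrArg Subtype.val h
    have h2 : (g : G) ^ 2 = 1 := by rw [sq]; nth_rewrite 1 [← h1]; rw [inv_mul_cancel]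
    have h3 := orderOf_dvd_of_pow_eq_one h2
    rw [g.2] at h3
    have := Nat.le_of_dvd (by norm_num) h3
    omega
  let F : Function.End {g : G // orderOf g = n} := f
  have hF : F ^ (2 ^ 1) = 1 := by
    rw [pow_one, sq]
    funext g
    exact hf g
  have := Fact.mk Nat.prime_two
  have h := Equiv.Perm.card_fixedPoints_modEq (p := 2) (n := 1) (f := F) hF
  have h0 : Fintype.card (Function.fixedPoints F) = 0 := by
    rw [Fintype.card_eq_zero_iff]
    exact ⟨fun x => hne x.1 x.2⟩
  rw [mo, Nat.card_eq_fintype_card]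
  rw [h0] at h
  exact even_iff_two_dvd.2 ((Nat.modEq_zero_iff_dvd).1 h)

omit [Finite G] in
theorem mo_one : mo G 1 = 1 := by
  rw [mo, Nat.card_eq_one_iff_unique]
  refine ⟨⟨fun a b => ?_⟩, ⟨⟨1, orderOf_one⟩⟩⟩
  apply Subtype.ext
  rw [orderOf_eq_one_iff.1 a.2, orderOf_eq_one_iff.1 b.2]

theorem card_pow {d : ℕ} (hd : 0 < d) : Nat.card {x : G // x ^ d = 1} = ∑ n ∈ d.divisors, mo G n := by
  classical
  have := Fintype.ofFinite G
  have h1 : Nat.card {x : G // x ^ d = 1} = (univ.filter (fun x : G => x ^ d = 1)).card := by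
    rw [Nat.card_eq_fintype_card, Fintype.card_subtype]
  rw [h1, card_eq_sum_card_fiberwise (f := orderOf) (t := d.divisors)]
  · apply sum_congr rfl
    intro n hn
    rw [mo, Nat.card_eq_fintype_card, Fintype.card_subtype]
    congr 1
    ext x
    simp only [mem_filter, mem_univ, true_and]
    constructor
    · exact fun h => h.2
    · intro h
      refine ⟨?_, h⟩
      rw [← orderOf_dvd_iff_pow_eq_one, h]
      exact Nat.dvd_of_mem_divisors hn
  · intro x hx
    rw [mem_coe, mem_filter] at hx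
    rw [mem_coe, Nat.mem_divisors]
    exact ⟨orderOf_dvd_of_pow_eq_one hx.2, hd.ne'⟩

theorem sum_mo : ∑ n ∈ (Nat.card G).divisors, mo G n = Nat.card G := by
  rw [← card_pow Nat.card_pos]
  apply Nat.card_congr
  exact (Equiv.subtypeUnivEquiv fun x => pow_card_eq_one')

omit [Finite G] in
theorem mo_pos_dvd {n : ℕ} (h : mo G n ≠ 0) : n ∣ Nat.card G := by
  have h1 : Nonempty {g : G // orderOf g = n} := by
    by_contra hcon
    rw [not_nonempty_iff] at hcon
    exact h (by rw [mo]; exact Nat.card_of_isEmpty)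
  obtain ⟨g, hg⟩ := h1
  rw [← hg]
  exact orderOf_dvd_natCard g

section main

variable {p f q : ℕ} (hp : p.Prime) (hp2 : p ≠ 2) (hf : f ≠ 0) (hq : q = p ^ f)
  (hG : Nat.card G = q * (q ^ 2 - 1))
  (hV : ∀ n, mo G n = 1 ∨ mo G n = q ^ 2 - 1 ∨ q ∣ mo G n)
  (h2 : ∃ n, mo G n = q ^ 2)

include hp hp2 hf hq

theorem q_facts : 3 ≤ q ∧ Odd q ∧ p ∣ q := by
  have h3 : 3 ≤ p := by have := hp.two_le; omega
  refine ⟨?_, ?_, ?_⟩
  · calc 3 ≤ p := h3
      _ = p ^ 1 := (pow_one p).symm
      _ ≤ q := by rw [hq]; exact Nat.pow_le_pow_right hp.pos (Nat.one_le_iff_ne_zero.2 hf)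
  · rw [hq]; exact (hp.odd_of_ne_two hp2).pow
  · rw [hq]; exact dvd_pow_self p hf

omit [Finite G] in
theorem p_not_dvd : ¬ p ∣ q ^ 2 - 1 := by
  intro h
  obtain ⟨h3, -, hpq⟩ := q_facts hp hp2 hf hq
  have h1 : p ∣ q ^ 2 := dvd_pow hpq two_ne_zero
  have h4 : 1 ≤ q ^ 2 := Nat.one_le_pow _ _ (by omega)
  have h5 : p ∣ 1 := by
    have := Nat.dvd_sub h1 h
    rwa [Nat.sub_sub_self h4] at this
  exact hp.one_lt.ne' (Nat.dvd_one.1 h5)

include h2 in
theorem mo_two : mo G 2 = q ^ 2 := by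
  obtain ⟨h3, hodd, hpq⟩ := q_facts hp hp2 hf hq
  obtain ⟨n, hn⟩ := h2
  have hn3 : ¬ 3 ≤ n := by
    intro h
    have h1 := mo_even (G := G) h
    rw [hn] at h1
    exact (Nat.not_even_iff_odd.2 (hodd.pow)) h1
  have h4 : 9 ≤ q ^ 2 := by nlinarith
  have hn0 : n ≠ 0 := by
    rintro rfl
    have h1 : mo G 0 ≠ 0 := by rw [hn]; omega
    have h5 := mo_pos_dvd h1
    rw [zero_dvd_iff] at h5
    exact Nat.card_pos.ne' h5
  have hn1 : n ≠ 1 := by
    rintro rfl
    rw [mo_one] at hn
    omega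
  have h6 : n = 2 := by omega
  subst h6
  exact hn

include hG hV h2

theorem mo_p : mo G p = q ^ 2 - 1 := by
  obtain ⟨h3, hodd, hpq⟩ := q_facts hp hp2 hf hq
  have hpG : p ∣ Nat.card G := by rw [hG]; exact hpq.mul_right _
  have h1 := FrobDvd.frobenius_dvd p hpG
  rw [card_pow hp.pos, hp.sum_divisors, mo_one] at h1
  rcases hV p with h | h | h
  · exfalso
    rw [h] at h1
    have := Nat.le_of_dvd (by norm_num) h1
    have := hp.two_le
    omega
  · exact h
  · exfalso
    have h4 : p ∣ mo G p := hpq.trans h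
    have h5 := (Nat.dvd_add_right h4).1 h1
    exact hp.one_lt.ne' (Nat.dvd_one.1 h5)

theorem mo_ne {n : ℕ} (hn1 : n ≠ 1) (hnp : n ≠ p) : q ∣ mo G n := by
  classical
  obtain ⟨h3, hodd, hpq⟩ := q_facts hp hp2 hf hq
  have h9 : 9 ≤ q ^ 2 := by nlinarith
  by_cases h0 : mo G n = 0
  · rw [h0]; exact dvd_zero q
  have hnG := mo_pos_dvd h0
  have hn0 : n ≠ 0 := by
    rintro rfl
    rw [zero_dvd_iff] at hnG
    exact Nat.card_pos.ne' hnG
  -- the numbers `n` with `mo n = 1`
  have hone : ∀ m, m ≠ 1 → mo G m ≠ 1 := by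
    intro m hm h
    have h0' : mo G m ≠ 0 := by rw [h]; norm_num
    have hmG := mo_pos_dvd h0'
    have hm0 : m ≠ 0 := by
      rintro rfl
      rw [zero_dvd_iff] at hmG
      exact Nat.card_pos.ne' hmG
    by_cases hm2 : m = 2
    · rw [hm2, mo_two hp hp2 hf hq h2] at h
      omega
    · have h4 := mo_even (G := G) (n := m) (by omega)
      rw [h] at h4
      exact (by decide : ¬ Even 1) h4
  set D := (Nat.card G).divisors with hD
  set A := D.filter (fun m => mo G m = q ^ 2 - 1) with hA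
  have hsum := sum_mo (G := G)
  have hGpos : Nat.card G ≠ 0 := Nat.card_pos.ne'
  have h1D : 1 ∈ D := Nat.one_mem_divisors.2 hGpos
  have h1A : 1 ∉ A := by
    intro h
    have := (mem_filter.1 h).2
    rw [mo_one] at this
    omega
  have hpA : p ∈ A := by
    rw [hA, mem_filter, hD, Nat.mem_divisors]
    exact ⟨⟨by rw [hG]; exact hpq.mul_right _, hGpos⟩, mo_p hp hp2 hf hq hG hV h2⟩
  have hsplit : ∑ m ∈ D, mo G m = A.card * (q ^ 2 - 1) + (1 + ∑ m ∈ (D \ A).erase 1, mo G m) := by
    rw [← sum_sdiff (filter_subset (fun m => mo G m = q ^ 2 - 1) D), ← hA, add_comm]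
    congr 1
    · rw [sum_congr rfl (fun m hm => (mem_filter.1 hm).2), sum_const, smul_eq_mul]
    · rw [← add_sum_erase (D \ A) _ (mem_sdiff.2 ⟨h1D, h1A⟩), mo_one]
  have hdvd : q ∣ ∑ m ∈ (D \ A).erase 1, mo G m := by
    apply dvd_sum
    intro m hm
    rw [mem_erase, mem_sdiff] at hm
    rcases hV m with h | h | h
    · exact absurd h (hone m hm.1)
    · exact absurd (mem_filter.2 ⟨hm.2.1, h⟩) hm.2.2
    · exact h
  obtain ⟨k, hk⟩ := hdvd
  rw [hsum, hk, hG] at hsplit
  obtain ⟨w, hw⟩ : ∃ w, q ^ 2 = w + 1 := ⟨q ^ 2 - 1, by omega⟩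
  rw [hw, Nat.add_sub_cancel] at hsplit
  have hAc : A.card = 1 := by
    have hA1 : 1 ≤ A.card := card_pos.2 ⟨p, hpA⟩
    have hAq : A.card ≤ q := by
      by_contra hcon
      push Not at hcon
      have : q * w < A.card * w := Nat.mul_lt_mul_of_pos_right hcon (by omega)
      omega
    have h5 : (q : ℤ) ∣ (A.card : ℤ) - 1 := by
      have h6 : (q : ℤ) * w = A.card * w + (1 + q * k) := by exact_mod_cast hsplit
      have h7 : (q : ℤ) ^ 2 = w + 1 := by exact_mod_cast hw
      refine ⟨A.card * q - w + k, ?_⟩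
      linear_combination h6 - (A.card : ℤ) * h7
    have h8 : (A.card : ℤ) - 1 = 0 := by
      apply Int.eq_zero_of_abs_lt_dvd h5
      rw [abs_of_nonneg (by omega)]
      omega
    omega
  obtain ⟨x, hx⟩ := card_eq_one.1 hAc
  have hxp : x = p := by
    rw [hx, mem_singleton] at hpA
    exact hpA.symm
  rcases hV n with h | h | h
  · exact absurd h (hone n hn1)
  · exfalso
    have : n ∈ A := mem_filter.2 ⟨Nat.mem_divisors.2 ⟨hnG, hGpos⟩, h⟩
    rw [hx, mem_singleton, hxp] at this
    exact hnp this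
  · exact h

/-- every element has order `p` or order dividing `q ^ 2 - 1` -/
theorem dichotomy (g : G) : g ^ (q ^ 2 - 1) = 1 ∨ orderOf g = p := by
  classical
  have := Fintype.ofFinite G
  obtain ⟨h3, hodd, hpq⟩ := q_facts hp hp2 hf hq
  have h9 : 9 ≤ q ^ 2 := by nlinarith
  have hpw := p_not_dvd hp hp2 hf hq
  obtain ⟨w, hw⟩ : ∃ w, q ^ 2 = w + 1 := ⟨q ^ 2 - 1, by omega⟩
  have hmp := mo_p hp hp2 hf hq hG hV h2
  have hne := fun n hn1 hnp => mo_ne hp hp2 hf hq hG hV h2 (n := n) hn1 hnp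
  rw [hw, Nat.add_sub_cancel] at hpw hmp ⊢
  have hG' : Nat.card G = q * w := by rw [hG, hw, Nat.add_sub_cancel]
  have hw0 : 0 < w := by omega
  -- the number of `p'`-elements
  have h4 := FrobDvd.frobenius_dvd (G := G) w (by rw [hG']; exact dvd_mul_left w q)
  have h5 : q ∣ ∑ n ∈ w.divisors.erase 1, mo G n := by
    apply dvd_sum
    intro n hn
    rw [mem_erase, Nat.mem_divisors] at hn
    refine hne n hn.1 ?_
    rintro rfl
    exact hpw hn.2.1
  have h6 : Nat.card {x : G // x ^ w = 1} = 1 + ∑ n ∈ w.divisors.erase 1, mo G n := by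
    rw [card_pow hw0, ← add_sum_erase w.divisors _ (Nat.one_mem_divisors.2 hw0.ne'), mo_one]
  obtain ⟨j, hj⟩ := h4
  obtain ⟨k, hk⟩ := h5
  rw [hj, hk] at h6
  have hdisj : Disjoint (univ.filter (fun x : G => x ^ w = 1)) (univ.filter (fun x : G => orderOf x = p)) := by
    rw [disjoint_filter]
    intro x _ h1 h7
    have h8 := orderOf_dvd_of_pow_eq_one h1
    rw [h7] at h8
    exact hpw h8
  have hc1 : (univ.filter (fun x : G => x ^ w = 1)).card = w * j := by
    rw [← hj, Nat.card_eq_fintype_card, Fintype.card_subtype]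
  have hc2 : (univ.filter (fun x : G => orderOf x = p)).card = w := by
    rw [← hmp, mo, Nat.card_eq_fintype_card, Fintype.card_subtype]
  have hcu := card_union_of_disjoint hdisj
  rw [hc1, hc2] at hcu
  have hle : w * j + w ≤ q * w := by
    rw [← hcu, ← hG', Nat.card_eq_fintype_card]
    exact card_le_univ _
  have hjq : j + 1 ≤ q := by
    have : (j + 1) * w ≤ q * w := by nlinarith
    exact Nat.le_of_mul_le_mul_right this hw0
  have hjq2 : j + 1 = q := by
    have h7 : (q : ℤ) ∣ (j : ℤ) + 1 := by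
      have h8 : (w : ℤ) * j = 1 + q * k := by exact_mod_cast h6
      have h10 : (q : ℤ) ^ 2 = w + 1 := by exact_mod_cast hw
      refine ⟨j * q - k, ?_⟩
      linear_combination -(j : ℤ) * h10 - h8
    have h8 : q ∣ j + 1 := by exact_mod_cast h7
    exact le_antisymm hjq (Nat.le_of_dvd (by omega) h8)
  have hall : univ.filter (fun x : G => x ^ w = 1) ∪ univ.filter (fun x : G => orderOf x = p) = univ := by
    apply eq_univ_of_card
    rw [hcu, ← Nat.card_eq_fintype_card, hG', ← hjq2]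
    ring
  have hg : g ∈ univ.filter (fun x : G => x ^ w = 1) ∪ univ.filter (fun x : G => orderOf x = p) := by
    rw [hall]; exact mem_univ g
  rw [mem_union, mem_filter, mem_filter] at hg
  rcases hg with h | h
  · exact Or.inl h.2
  · exact Or.inr h.2

end main

end Cfsg.Agent.Lib.H1NseA
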