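import Mathlib
import Cfsg.Agent.Lib.H1NseA
import Cfsg.Agent.Lib.H1NseC
import Cfsg.Agent.Lib.CharCentral

/-!
A group of order `q (q² - 1)`, `q = p ^ f` odd, in which every element has order `p` or order
dividing `q² - 1`, with `q² - 1` elements of order `p` and `q²` involutions, is `PGL₂(q)` (helper1).
-/

set_option autoImplicit false
set_option linter.unusedSectionVars false

namespace Cfsg.Agent.Lib.H1NseB

open MulAction ZassBasic Sharp3 H1NseA

universe u

/-- the standing hypothesis -/
structure Hyp (G : Type u) [Group G] (p f q : ℕ) : Prop where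
  hp : p.Prime
  hp2 : p ≠ 2
  hf : f ≠ 0
  hq : q = p ^ f
  hG : Nat.card G = q * (q ^ 2 - 1)
  hD : ∀ g : G, g ^ (q ^ 2 - 1) = 1 ∨ orderOf g = p
  hmp : mo G p = q ^ 2 - 1
  hm2 : mo G 2 = q ^ 2

variable {G : Type u} [Group G] [Finite G] {p f q : ℕ} (h : Hyp G p f q)
include h

theorem q3 : 3 ≤ q := (q_facts h.hp h.hp2 h.hf h.hq).1

theorem pq : p ∣ q := (q_facts h.hp h.hp2 h.hf h.hq).2.2

theorem pw : ¬ p ∣ q ^ 2 - 1 := p_not_dvd h.hp h.hp2 h.hf h.hq

theorem podd : Odd p := h.hp.odd_of_ne_two h.hp2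

/-- an element commuting with an element of order `p` satisfies `y ^ p = 1` -/
theorem iso {x y : G} (hx : orderOf x = p) (hxy : x * y = y * x) : y ^ p = 1 := by
  rcases h.hD y with hy | hy
  · have h1 : (x * y) ^ (q ^ 2 - 1) = x ^ (q ^ 2 - 1) := by
      rw [(show Commute x y from hxy).mul_pow, hy, mul_one]
    have h2 : x ^ (q ^ 2 - 1) ≠ 1 := by
      intro h3
      have h4 := orderOf_dvd_of_pow_eq_one h3
      rw [hx] at h4
      exact pw h h4
    rcases h.hD (x * y) with h3 | h3
    · rw [h1] at h3; exact absurd h3 h2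
    · have h4 : (x * y) ^ p = 1 := by rw [← h3]; exact pow_orderOf_eq_one _
      rw [(show Commute x y from hxy).mul_pow, ← hx, pow_orderOf_eq_one, one_mul] at h4
      rw [hx] at h4
      exact h4
  · rw [← hy]; exact pow_orderOf_eq_one y

variable [hpf : Fact p.Prime]

theorem card_P (P : Sylow p G) : Nat.card P = q := by
  have h1 := P.card_eq_multiplicity
  have hq0 : q ≠ 0 := by have := q3 h; omega
  have hw0 : q ^ 2 - 1 ≠ 0 := by
    have := q3 h
    have : 9 ≤ q ^ 2 := by nlinarith
    omega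
  have h2 : (Nat.card G).factorization p = f := by
    rw [h.hG, Nat.factorization_mul hq0 hw0, Finsupp.add_apply,
      Nat.factorization_eq_zero_of_not_dvd (pw h), add_zero, h.hq, h.hp.factorization_pow,
      Finsupp.single_eq_same]
  rw [h2] at h1
  rw [h.hq]
  exact h1

theorem order_of_mem (P : Sylow p G) {x : G} (hx : x ∈ P) (hx1 : x ≠ 1) : orderOf x = p := by
  rcases h.hD x with h1 | h1
  · exfalso
    have h2 : x ^ q = 1 := by
      have h3 : (⟨x, hx⟩ : P) ^ Nat.card P = 1 := pow_card_eq_one'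
      rw [card_P h P] at h3
      exact congrArg Subtype.val h3
    have h3 : orderOf x ∣ Nat.gcd q (q ^ 2 - 1) :=
      Nat.dvd_gcd (orderOf_dvd_of_pow_eq_one h2) (orderOf_dvd_of_pow_eq_one h1)
    have h4 : Nat.Coprime q (q ^ 2 - 1) := by
      nth_rewrite 1 [h.hq]
      exact Nat.Coprime.pow_left _ ((Nat.Prime.coprime_iff_not_dvd h.hp).2 (pw h))
    rw [h4] at h3
    exact hx1 (orderOf_eq_one_iff.1 (Nat.dvd_one.1 h3))
  · exact h1

theorem isP {x : G} (hx : orderOf x = p) : IsPGroup p (Subgroup.centralizer ({x} : Set G)) := by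
  intro y
  refine ⟨1, ?_⟩
  rw [pow_one]
  apply Subtype.ext
  have h1 := y.2
  rw [Subgroup.mem_centralizer_singleton_iff] at h1
  exact iso h hx h1.symm

/-- there is a central element -/
theorem exists_central (P : Sylow p G) : ∃ z : G, orderOf z = p ∧
    Subgroup.centralizer ({z} : Set G) = P := by
  have h1 : Nontrivial P := by
    rw [← Finite.one_lt_card_iff_nontrivial, card_P h P]
    have := q3 h
    omega
  have h2 := P.isPGroup'.center_nontrivial
  obtain ⟨z, hz⟩ := exists_ne (1 : Subgroup.center P)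
  have hz1 : ((z : P) : G) ≠ 1 := fun h3 => hz (Subtype.ext (Subtype.ext h3))
  have ho := order_of_mem h P (z : P).2 hz1
  refine ⟨z, ho, ?_⟩
  apply P.is_maximal' (isP h ho)
  intro y hy
  rw [Subgroup.mem_centralizer_singleton_iff]
  have h3 := Subgroup.mem_center_iff.1 z.2 ⟨y, hy⟩
  exact congrArg Subtype.val h3

/-- all elements of order `p` are conjugate -/
theorem conj_all (P : Sylow p G) {z : G} (hz : orderOf z = p)
    (hzP : Subgroup.centralizer ({z} : Set G) = P) {x : G} (hx : orderOf x = p) : IsConj z x := by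
  have h1 := CharCentral.card_conj_eq_index z
  have h2 := (Subgroup.centralizer ({z} : Set G)).index_mul_card
  rw [← h1, hzP] at h2
  have h3 : Nat.card P = q := card_P h P
  have h4 : Nat.card (P : Subgroup G) = q := h3
  rw [h4, h.hG, mul_comm] at h2
  have hq0 : 0 < q := by have := q3 h; omega
  have h5 : Nat.card {x : G // IsConj z x} = q ^ 2 - 1 := Nat.eq_of_mul_eq_mul_left hq0 h2
  let F : {x : G // IsConj z x} → {x : G // orderOf x = p} := fun x => ⟨x, by
    obtain ⟨c, hc⟩ := isConj_iff.1 x.2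
    rw [← hc, ← hz]
    exact orderOf_injective (MulAut.conj c).toMonoidHom (MulAut.conj c).injective z⟩
  have hF : Function.Injective F := by
    intro a b hab
    have h7 : (F a : G) = F b := congrArg Subtype.val hab
    exact Subtype.ext h7
  have h6 : Nat.card {x : G // orderOf x = p} = q ^ 2 - 1 := h.hmp
  have hbij : Function.Bijective F := (Nat.bijective_iff_injective_and_card F).2 ⟨hF, by rw [h5, h6]⟩
  obtain ⟨y, hy⟩ := hbij.2 ⟨x, hx⟩
  have h7 : (y : G) = x := congrArg Subtype.val hy
  rw [← h7]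
  exact y.2

/-- an involution normalising a Sylow subgroup inverts it -/
theorem inverts (P : Sylow p G) {t : G} (htt : t * t = 1) (ht1 : t ≠ 1)
    (hn : ∀ x ∈ P, t * x * t ∈ P) : ∀ x ∈ P, t * x * t = x⁻¹ := by
  have htinv : t⁻¹ = t := inv_eq_of_mul_eq_one_right htt
  let φ : P →* P := {
    toFun := fun x => ⟨t * x * t, hn x x.2⟩
    map_one' := by
      apply Subtype.ext
      show t * 1 * t = 1
      rw [mul_one, htt]
    map_mul' := fun x y => by
      apply Subtype.ext
      show t * (x * y) * t = (t * x * t) * (t * y * t)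
      calc t * (x * y) * t = t * x * 1 * y * t := by group
        _ = t * x * (t * t) * y * t := by rw [htt]
        _ = (t * x * t) * (t * y * t) := by group }
  have hfree : MonoidHom.FixedPointFree φ := by
    intro x hx
    by_contra hx1
    have hx1' : (x : G) ≠ 1 := fun h1 => hx1 (Subtype.ext h1)
    have ho := order_of_mem h P x.2 hx1'
    have h1 : t * x * t = (x : G) := congrArg Subtype.val hx
    have h2 : (x : G) * t = t * x := by
      calc (x : G) * t = t * x * t * t := by rw [h1]
        _ = t * x * (t * t) := by group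
        _ = t * x := by rw [htt, mul_one]
    have h3 := iso h ho h2
    obtain ⟨k, hk⟩ := podd h
    rw [hk, pow_succ, pow_mul, sq, htt, one_pow, one_mul] at h3
    exact ht1 h3
  have hinv : Function.Involutive φ := by
    intro x
    apply Subtype.ext
    show t * (t * x * t) * t = x
    calc t * (t * x * t) * t = (t * t) * x * (t * t) := by group
      _ = x := by rw [htt, one_mul, mul_one]
  have h1 := hfree.coe_eq_inv_of_involutive hinv
  intro x hx
  have h2 := congrFun h1 ⟨x, hx⟩
  exact congrArg Subtype.val h2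

/-- there is an inverting involution -/
theorem exists_inv (P : Sylow p G) : ∃ t : G, t * t = 1 ∧ t ≠ 1 ∧ (∀ x ∈ P, t * x * t ∈ P) ∧
    ∀ x ∈ P, t * x * t = x⁻¹ := by
  obtain ⟨z, hz, hzP⟩ := exists_central h P
  have hz' : orderOf z⁻¹ = p := by rw [orderOf_inv, hz]
  obtain ⟨g, hg⟩ := isConj_iff.1 (conj_all h P hz hzP hz')
  have hmem : ∀ y : G, y ∈ P ↔ y * z = z * y := by
    intro y
    have : y ∈ (P : Subgroup G) ↔ y * z = z * y := by
      rw [← hzP, Subgroup.mem_centralizer_singleton_iff]
    exact this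
  have hmem' : ∀ y : G, y * z⁻¹ = z⁻¹ * y ↔ y * z = z * y := by
    intro y
    constructor
    · intro h1
      calc y * z = z * (z⁻¹ * y) * z := by group
        _ = z * (y * z⁻¹) * z := by rw [h1]
        _ = z * y := by group
    · intro h1
      calc y * z⁻¹ = z⁻¹ * (z * y) * z⁻¹ := by group
        _ = z⁻¹ * (y * z) * z⁻¹ := by rw [h1]
        _ = z⁻¹ * y := by group
  -- `g` normalises `P`
  have hgP : ∀ x ∈ P, g * x * g⁻¹ ∈ P := by
    intro x hx
    rw [hmem] at hx ⊢
    rw [← hmem', ← hg]
    calc g * x * g⁻¹ * (g * z * g⁻¹) = g * (x * z) * g⁻¹ := by group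
      _ = g * (z * x) * g⁻¹ := by rw [hx]
      _ = g * z * g⁻¹ * (g * x * g⁻¹) := by group
  have hg2 : (g * g) ^ p = 1 := by
    apply iso h hz
    have h1 : (g * g) * z * (g * g)⁻¹ = z := by
      calc (g * g) * z * (g * g)⁻¹ = g * (g * z * g⁻¹) * g⁻¹ := by group
        _ = g * z⁻¹ * g⁻¹ := by rw [hg]
        _ = (g * z * g⁻¹)⁻¹ := by group
        _ = z := by rw [hg, inv_inv]
    calc z * (g * g) = ((g * g) * z * (g * g)⁻¹) * (g * g) := by rw [h1]
      _ = (g * g) * z := by group
  have hzz : z ≠ z⁻¹ := by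
    intro h1
    have h2 : z * z = 1 := by nth_rewrite 1 [h1]; exact inv_mul_cancel z
    have h3 : orderOf z ∣ 2 := orderOf_dvd_of_pow_eq_one (by rw [sq, h2])
    rw [hz] at h3
    exact h.hp2 ((Nat.prime_dvd_prime_iff_eq h.hp Nat.prime_two).1 h3)
  have hpown : ∀ n : ℕ, ∀ x ∈ P, g ^ n * x * (g ^ n)⁻¹ ∈ P := by
    intro n
    induction n with
    | zero => intro x hx; simpa using hx
    | succ n ih =>
      intro x hx
      have h1 := ih _ (hgP x hx)
      have h2 : g ^ (n + 1) * x * (g ^ (n + 1))⁻¹ = g ^ n * (g * x * g⁻¹) * (g ^ n)⁻¹ := by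
        rw [pow_succ]; group
      rw [h2]; exact h1
  set t := g ^ p with ht
  have htt : t * t = 1 := by
    rw [ht, ← (Commute.refl g).mul_pow, hg2]
  have ht1 : t ≠ 1 := by
    intro h1
    -- `g = (g²)^k⁻¹`: then `g` centralises `z`
    obtain ⟨k, hk⟩ := podd h
    have h2 : g * (g * g) ^ k = 1 := by
      rw [← h1, ht, hk, ← sq, ← pow_mul, ← pow_succ']
    have h3 : (g * g) * z = z * (g * g) := by
      have h4 : (g * g) * z * (g * g)⁻¹ = z := by
        calc (g * g) * z * (g * g)⁻¹ = g * (g * z * g⁻¹) * g⁻¹ := by group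
          _ = g * z⁻¹ * g⁻¹ := by rw [hg]
          _ = (g * z * g⁻¹)⁻¹ := by group
          _ = z := by rw [hg, inv_inv]
      calc (g * g) * z = ((g * g) * z * (g * g)⁻¹) * (g * g) := by group
        _ = z * (g * g) := by rw [h4]
    have h5 : Commute ((g * g) ^ k) z := (show Commute (g * g) z from h3).pow_left k
    have h6 : g = ((g * g) ^ k)⁻¹ := eq_inv_of_mul_eq_one_left h2
    have h7 : Commute g z := by rw [h6]; exact h5.inv_left
    apply hzz
    calc z = g * z * g⁻¹ := by rw [h7.eq]; group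
      _ = z⁻¹ := hg
  have htn : ∀ x ∈ P, t * x * t ∈ P := by
    intro x hx
    have h1 := hpown p x hx
    rw [← ht, inv_eq_of_mul_eq_one_right htt] at h1
    exact h1
  exact ⟨t, htt, ht1, htn, inverts h P htt ht1 htn⟩

theorem P_comm (P : Sylow p G) : ∀ x ∈ P, ∀ y ∈ P, x * y = y * x := by
  obtain ⟨t, htt, -, -, hi⟩ := exists_inv h P
  intro x hx y hy
  have hxy : x * y ∈ P := mul_mem hx hy
  have h1 := hi _ hxy
  have h2 := hi _ hx
  have h3 := hi _ hy
  have h4 : t * (x * y) * t = (t * x * t) * (t * y * t) := by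
    calc t * (x * y) * t = t * x * (1 : G) * y * t := by group
      _ = t * x * (t * t) * y * t := by rw [htt]
      _ = (t * x * t) * (t * y * t) := by group
  rw [h4, h2, h3, mul_inv_rev] at h1
  have h5 := congrArg (·⁻¹) h1
  simp only [mul_inv_rev, inv_inv] at h5
  exact h5.symm

theorem cent (P : Sylow p G) {x y : G} (hx : x ∈ P) (hx1 : x ≠ 1) (hxy : x * y = y * x) : y ∈ P := by
  have ho := order_of_mem h P hx hx1
  have h1 : Subgroup.centralizer ({x} : Set G) = P := by
    apply P.is_maximal' (isP h ho)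
    intro w hw
    rw [Subgroup.mem_centralizer_singleton_iff]
    exact P_comm h P w hw x hx
  have h2 : y ∈ Subgroup.centralizer ({x} : Set G) := by
    rw [Subgroup.mem_centralizer_singleton_iff]
    exact hxy.symm
  rw [h1] at h2
  exact h2

theorem TI {P Q : Sylow p G} {x : G} (hx : x ∈ P) (hx' : x ∈ Q) (hx1 : x ≠ 1) : P = Q := by
  apply Sylow.ext
  ext y
  constructor
  · intro hy
    exact cent h Q hx' hx1 (P_comm h P x hx y hy)
  · intro hy
    exact cent h P hx hx1 (P_comm h Q x hx' y hy)

theorem exists_sylow {x : G} (hx : orderOf x = p) : ∃ P : Sylow p G, x ∈ P := by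
  have h1 : IsPGroup p (Subgroup.zpowers x) := by
    rw [IsPGroup.iff_card]
    exact ⟨1, by rw [Nat.card_zpowers, hx, pow_one]⟩
  obtain ⟨P, hP⟩ := h1.exists_le_sylow
  exact ⟨P, hP (Subgroup.mem_zpowers x)⟩

theorem card_Syl : Nat.card (Sylow p G) = q + 1 := by
  classical
  have := Fintype.ofFinite (Sylow p G)
  let F : (Σ P : Sylow p G, {x : P // x ≠ 1}) → {x : G // orderOf x = p} := fun y =>
    ⟨((y.2 : y.1) : G), order_of_mem h y.1 (y.2 : y.1).2 (fun h1 => y.2.2 (Subtype.ext h1))⟩
  have hF : Function.Bijective F := by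
    constructor
    · rintro ⟨P, ⟨x, hx⟩⟩ ⟨Q, ⟨y, hy⟩⟩ hxy
      have h1 : (x : G) = y := congrArg Subtype.val hxy
      have h2 : P = Q := TI h x.2 (by rw [h1]; exact y.2) (fun h3 => hx (Subtype.ext h3))
      subst h2
      have h3 : x = y := Subtype.ext h1
      subst h3
      rfl
    · rintro ⟨x, hx⟩
      obtain ⟨P, hP⟩ := exists_sylow h hx
      refine ⟨⟨P, ⟨⟨x, hP⟩, ?_⟩⟩, rfl⟩
      intro h1
      have h2 : x = 1 := congrArg Subtype.val h1
      rw [h2, orderOf_one] at hx
      exact h.hp.one_lt.ne hx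
  have h1 := Nat.card_congr (Equiv.ofBijective F hF)
  have h2 : Nat.card {x : G // orderOf x = p} = q ^ 2 - 1 := h.hmp
  have h3 : ∀ P : Sylow p G, Nat.card {x : P // x ≠ 1} = q - 1 := by
    intro P
    have := Fintype.ofFinite P
    rw [Nat.card_eq_fintype_card, Fintype.card_subtype_compl, Fintype.card_subtype_eq,
      ← Nat.card_eq_fintype_card]
    exact congrArg (· - 1) (card_P h P)
  rw [h2, Nat.card_sigma] at h1
  simp only [h3] at h1
  rw [Finset.sum_const, smul_eq_mul, Finset.card_univ, ← Nat.card_eq_fintype_card] at h1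
  have h4 : q ^ 2 - 1 = (q + 1) * (q - 1) := by
    have := Nat.sq_sub_sq q 1
    rwa [one_pow] at this
  rw [h4] at h1
  have h5 : 0 < q - 1 := by have := q3 h; omega
  exact Nat.eq_of_mul_eq_mul_right h5 h1

/-! ### the action on Sylow subgroups -/

theorem smul_self {P : Sylow p G} {x : G} (hx : x ∈ P) : x • P = P := by
  rw [Sylow.smul_eq_iff_mem_normalizer]
  exact Subgroup.le_normalizer hx

theorem eq_one {P Q : Sylow p G} (hPQ : P ≠ Q) {x : G} (hx : x ∈ P) (hxQ : x • Q = Q) : x = 1 := by
  rw [Sylow.smul_eq_iff_mem_normalizer] at hxQ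
  have h1 : x ∈ (P : Subgroup G) ⊓ Subgroup.normalizer (Q : Set G) := ⟨hx, hxQ⟩
  rw [P.isPGroup'.inf_normalizer_sylow Q] at h1
  by_contra hx1
  exact hPQ (TI h hx h1.2 hx1)

theorem trans_P {P Q R : Sylow p G} (hQ : Q ≠ P) (hR : R ≠ P) : ∃ x ∈ P, x • Q = R := by
  classical
  have := Fintype.ofFinite (Sylow p G)
  let F : P → {S : Sylow p G // S ≠ P} := fun x => ⟨(x : G) • Q, fun h1 => by
    apply hQ
    have h2 : (x : G) • Q = (x : G) • P := by rw [h1, smul_self h x.2]
    exact MulAction.injective _ h2⟩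
  have hF : Function.Injective F := by
    intro x y hxy
    have h1 : (x : G) • Q = (y : G) • Q := congrArg Subtype.val hxy
    have h2 : ((y : G)⁻¹ * x) • Q = Q := by rw [mul_smul, h1, inv_smul_smul]
    have h3 := eq_one h hQ.symm (mul_mem (inv_mem y.2) x.2) h2
    exact Subtype.ext (inv_mul_eq_one.1 h3).symm
  have hc : Nat.card {S : Sylow p G // S ≠ P} = q := by
    rw [Nat.card_eq_fintype_card, Fintype.card_subtype_compl, Fintype.card_subtype_eq,
      ← Nat.card_eq_fintype_card, card_Syl h]
    omega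
  have hbij : Function.Bijective F := (Nat.bijective_iff_injective_and_card F).2
    ⟨hF, by rw [hc]; exact card_P h P⟩
  obtain ⟨x, hx⟩ := hbij.2 ⟨R, hR⟩
  exact ⟨x, x.2, congrArg Subtype.val hx⟩

theorem two : IsMultiplyPretransitive G (Sylow p G) 2 := by
  rw [is_two_pretransitive_iff]
  intro a b c d hab hcd
  obtain ⟨g, hg⟩ := MulAction.exists_smul_eq G a c
  have h1 : g • b ≠ c := by
    intro h2
    rw [← hg] at h2
    exact hab (MulAction.injective _ h2).symm
  obtain ⟨x, hx, hx2⟩ := trans_P h h1 hcd.symm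
  exact ⟨x * g, by rw [mul_smul, hg, smul_self h hx], by rw [mul_smul, hx2]⟩

theorem fix3 : Fix3 G (Sylow p G) := by
  intro g a b c hab hbc hac ha hb hc
  obtain ⟨x, hx, hxb⟩ := trans_P h hab.symm hac.symm
  have hx1 : x ≠ 1 := by
    rintro rfl
    rw [one_smul] at hxb
    exact hbc hxb
  -- `x⁻¹ g x g⁻¹` fixes `b` and lies in `a`
  have hgn : ∀ y ∈ a, g * y * g⁻¹ ∈ a := by
    rw [Sylow.smul_eq_iff_mem_normalizer] at ha
    intro y hy
    exact (Subgroup.mem_normalizer_iff.1 ha y).1 hy
  have h1 : x⁻¹ * (g * x * g⁻¹) ∈ a := mul_mem (inv_mem hx) (hgn x hx)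
  have h2 : (x⁻¹ * (g * x * g⁻¹)) • b = b := by
    rw [mul_smul, mul_smul, mul_smul, inv_smul_eq_iff.2 hb.symm, hxb, hc, ← hxb, inv_smul_smul]
  have h3 := eq_one h hab h1 h2
  have h4 : x = g * x * g⁻¹ := inv_mul_eq_one.1 h3
  have h5 : x * g = g * x := by
    calc x * g = (g * x * g⁻¹) * g := by rw [← h4]
      _ = g * x := by group
  exact eq_one h hab (cent h a hx hx1 h5) hb

theorem card_H {a b : Sylow p G} (hab : a ≠ b) :
    Nat.card ↥(stabilizer G a ⊓ stabilizer G b) = q - 1 := by
  classical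
  have := Fintype.ofFinite (Sylow p G)
  have h1 := card_stab (two h) hab
  have h2 : Nat.card {S : Sylow p G // S ≠ a} = q := by
    rw [Nat.card_eq_fintype_card, Fintype.card_subtype_compl, Fintype.card_subtype_eq,
      ← Nat.card_eq_fintype_card, card_Syl h]
    omega
  have h3 := Subgroup.index_mul_card (stabilizer G a)
  rw [MulAction.index_stabilizer_of_transitive, card_Syl h, h.hG, h1, h2] at h3
  have h4 : q ^ 2 - 1 = (q + 1) * (q - 1) := by
    have := Nat.sq_sub_sq q 1
    rwa [one_pow] at this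
  rw [h4] at h3
  have h5 : 0 < q := by have := q3 h; omega
  have h6 : (q + 1) * q * Nat.card ↥(stabilizer G a ⊓ stabilizer G b) = (q + 1) * q * (q - 1) := by
    rw [mul_assoc, h3]; ring
  exact Nat.eq_of_mul_eq_mul_left (by positivity) h6

theorem move3 : Move3 G (Sylow p G) := by
  classical
  have := Fintype.ofFinite (Sylow p G)
  intro x y z x' y' z' hxy hxz hyz hxy' hxz' hyz'
  obtain ⟨g, hgx, hgy⟩ := exists_move (two h) hxy hxy'
  have hz1 : g • z ≠ x' := by
    intro h1; rw [← hgx] at h1; exact hxz (MulAction.injective _ h1).symm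
  have hz2 : g • z ≠ y' := by
    intro h1; rw [← hgy] at h1; exact hyz (MulAction.injective _ h1).symm
  have key : ∀ w : Sylow p G, w ≠ x' → w ≠ y' → ∃ k ∈ stabilizer G x' ⊓ stabilizer G y', k • (g • z) = w := by
    let F : ↥(stabilizer G x' ⊓ stabilizer G y') → {w : Sylow p G // w ∈ (Finset.univ.erase x').erase y'} :=
      fun k => ⟨(k : G) • (g • z), by
        rw [Finset.mem_erase, Finset.mem_erase]
        refine ⟨?_, ?_, Finset.mem_univ _⟩
        · intro h1
          have h2 : (k : G) • y' = y' := k.2.2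
          exact hz2 (MulAction.injective (k : G) (h1.trans h2.symm))
        · intro h1
          have h2 : (k : G) • x' = x' := k.2.1
          exact hz1 (MulAction.injective (k : G) (h1.trans h2.symm))⟩
    have hF : Function.Injective F := by
      intro k l hkl
      have h1 : (k : G) • (g • z) = (l : G) • (g • z) := congrArg Subtype.val hkl
      apply Subtype.ext
      have hk1 : (k : G) • x' = x' := k.2.1
      have hk2 : (k : G) • y' = y' := k.2.2
      have hl1 : (l : G) • x' = x' := l.2.1
      have hl2 : (l : G) • y' = y' := l.2.2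
      exact eq_of_three (fix3 h) hxy' hz1.symm hz2.symm (hk1.trans hl1.symm) (hk2.trans hl2.symm) h1
    have hc : Nat.card {w : Sylow p G // w ∈ (Finset.univ.erase x').erase y'} = q - 1 := by
      rw [Nat.card_eq_fintype_card, Fintype.card_coe, Finset.card_erase_of_mem
        (Finset.mem_erase.2 ⟨hxy'.symm, Finset.mem_univ _⟩), Finset.card_erase_of_mem (Finset.mem_univ _),
        Finset.card_univ, ← Nat.card_eq_fintype_card, card_Syl h]
      omega
    have hbij : Function.Bijective F := (Nat.bijective_iff_injective_and_card F).2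
      ⟨hF, by rw [hc, card_H h hxy']⟩
    intro w hw1 hw2
    obtain ⟨k, hk⟩ := hbij.2 ⟨w, by
      rw [Finset.mem_erase, Finset.mem_erase]; exact ⟨hw2, hw1, Finset.mem_univ _⟩⟩
    exact ⟨k, k.2, congrArg Subtype.val hk⟩
  obtain ⟨k, hk, hkz⟩ := key z' hxz'.symm hyz'.symm
  refine ⟨k * g, ?_, ?_, ?_⟩
  · rw [mul_smul, hgx]; exact hk.1
  · rw [mul_smul, hgy]; exact hk.2
  · rw [mul_smul, hkz]

/-- the number of involutions fixing a point is at most `q` -/
theorem inv_fix (a : Sylow p G) : Nat.card {t : G // orderOf t = 2 ∧ t • a = a} ≤ q := by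
  by_cases he : Nonempty {t : G // orderOf t = 2 ∧ t • a = a}
  swap
  · rw [not_nonempty_iff] at he
    rw [Nat.card_of_isEmpty]
    exact Nat.zero_le q
  obtain ⟨t0, ht0, ht0a⟩ := he
  have hsq : ∀ t : G, orderOf t = 2 → t * t = 1 := fun t ht => by
    rw [← sq, ← ht]; exact pow_orderOf_eq_one t
  have hne : ∀ t : G, orderOf t = 2 → t ≠ 1 := by
    rintro t ht rfl
    rw [orderOf_one] at ht
    omega
  have hn : ∀ t : G, orderOf t = 2 → t • a = a → ∀ x ∈ a, t * x * t ∈ a := by
    intro t ht hta x hx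
    rw [Sylow.smul_eq_iff_mem_normalizer] at hta
    have h1 := (Subgroup.mem_normalizer_iff.1 hta x).1 hx
    rwa [inv_eq_of_mul_eq_one_right (hsq t ht)] at h1
  obtain ⟨z, hz, hzP⟩ := exists_central h a
  have hza : z ∈ a := by
    have : z ∈ Subgroup.centralizer ({z} : Set G) := by rw [Subgroup.mem_centralizer_singleton_iff]
    rw [hzP] at this
    exact this
  have hz1 : z ≠ 1 := by
    rintro rfl
    rw [orderOf_one] at hz
    exact h.hp.one_lt.ne hz
  let F : {t : G // orderOf t = 2 ∧ t • a = a} → a := fun t => ⟨(t : G) * t0, by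
    apply cent h a hza hz1
    have h1 := inverts h a (hsq _ t.2.1) (hne _ t.2.1) (hn _ t.2.1 t.2.2) z hza
    have h2 := inverts h a (hsq _ ht0) (hne _ ht0) (hn _ ht0 ht0a) z hza
    have h3 := inverts h a (hsq _ t.2.1) (hne _ t.2.1) (hn _ t.2.1 t.2.2) z⁻¹ (inv_mem hza)
    have h4 := hsq _ t.2.1
    have h5 := hsq _ ht0
    calc z * ((t : G) * t0) = (t : G) * (t * z * t) * t0 := by
          rw [show (t : G) * (t * z * t) * t0 = (t * t) * z * (t * t0) by group, h4, one_mul]
      _ = (t : G) * (t0 * z * t0) * t0 := by rw [h1, h2]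
      _ = (t : G) * t0 * z * (t0 * t0) := by group
      _ = (t : G) * t0 * z := by rw [h5, mul_one]⟩
  have hF : Function.Injective F := by
    intro t s hts
    have h1 : (t : G) * t0 = s * t0 := congrArg Subtype.val hts
    exact Subtype.ext (mul_right_cancel h1)
  calc Nat.card {t : G // orderOf t = 2 ∧ t • a = a} ≤ Nat.card a := Nat.card_le_card_of_injective F hF
    _ = q := card_P h a

/-- an element interchanging two points is an involution -/
theorem swap_inv {a b : Sylow p G} (hab : a ≠ b) {g : G} (hga : g • a = b) (hgb : g • b = a) :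
    g * g = 1 := by
  classical
  have := Fintype.ofFinite (Sylow p G)
  have := Fintype.ofFinite G
  have hq3 := q3 h
  have hΩ : Fintype.card (Sylow p G) = q + 1 := by rw [← Nat.card_eq_fintype_card, card_Syl h]
  -- a third point
  have hex : ∀ b : Sylow p G, ∃ c : Sylow p G, c ≠ a ∧ c ≠ b := by
    intro b
    have : 0 < (((Finset.univ : Finset (Sylow p G)).erase a).erase b).card := by
      have h1 := Finset.pred_card_le_card_erase (s := (Finset.univ : Finset (Sylow p G)).erase a) (a := b)
      have h2 := Finset.card_erase_of_mem (Finset.mem_univ a)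
      rw [Finset.card_univ, hΩ] at h2
      omega
    obtain ⟨c, hc⟩ := Finset.card_pos.1 this
    rw [Finset.mem_erase, Finset.mem_erase] at hc
    exact ⟨c, hc.2.1, hc.1⟩
  choose c0 hc0a hc0b using hex
  set M := (Finset.univ : Finset G).filter (fun g => g • a ≠ a ∧ (g * g) • a = a) with hM
  set T := (Finset.univ : Finset G).filter (fun g => orderOf g = 2 ∧ g • a ≠ a) with hT
  have hTM : T ⊆ M := by
    intro t ht
    rw [hT, Finset.mem_filter] at ht
    rw [hM, Finset.mem_filter]
    refine ⟨Finset.mem_univ _, ht.2.2, ?_⟩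
    have : t * t = 1 := by rw [← sq, ← ht.2.1]; exact pow_orderOf_eq_one t
    rw [this, one_smul]
  have hMc : M.card ≤ q * (q - 1) := by
    have h1 : M.card ≤ (((Finset.univ : Finset (Sylow p G)).erase a).sigma
        (fun b => ((Finset.univ : Finset (Sylow p G)).erase a).erase b)).card := by
      apply Finset.card_le_card_of_injOn (fun g => (⟨g • a, g • c0 (g • a)⟩ : Σ _ : Sylow p G, Sylow p G))
      · intro g hg
        rw [Finset.mem_coe, hM, Finset.mem_filter] at hg
        obtain ⟨-, h1, h2⟩ := hg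
        rw [Finset.mem_coe, Finset.mem_sigma, Finset.mem_erase, Finset.mem_erase, Finset.mem_erase]
        refine ⟨⟨h1, Finset.mem_univ _⟩, ?_, ?_, Finset.mem_univ _⟩
        · intro h3
          exact hc0a _ (MulAction.injective g h3)
        · intro h3
          rw [mul_smul] at h2
          exact hc0b _ (MulAction.injective g (h3.trans h2.symm))
      · intro g hg g' hg' hgg
        rw [Finset.mem_coe, hM, Finset.mem_filter] at hg hg'
        obtain ⟨-, h1, h2⟩ := hg
        obtain ⟨-, h1', h2'⟩ := hg'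
        have e1 : g • a = g' • a := congrArg Sigma.fst hgg
        have e2 : g • c0 (g • a) = g' • c0 (g' • a) := by
          have := (Sigma.mk.inj_iff.1 hgg).2
          exact eq_of_heq this
        rw [mul_smul] at h2 h2'
        rw [← e1] at e2 h2'
        exact eq_of_three (fix3 h) h1.symm (hc0a _).symm (hc0b _).symm e1 (h2.trans h2'.symm) e2
    rw [Finset.card_sigma] at h1
    have h2 : ∀ b ∈ (Finset.univ : Finset (Sylow p G)).erase a,
        (((Finset.univ : Finset (Sylow p G)).erase a).erase b).card = q - 1 := by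
      intro b hb
      rw [Finset.card_erase_of_mem hb, Finset.card_erase_of_mem (Finset.mem_univ _), Finset.card_univ, hΩ]
      omega
    rw [Finset.sum_congr rfl h2, Finset.sum_const, smul_eq_mul, Finset.card_erase_of_mem (Finset.mem_univ _),
      Finset.card_univ, hΩ, Nat.add_sub_cancel] at h1
    exact h1
  have hTc : q * (q - 1) ≤ T.card := by
    have h1 : (Finset.univ.filter (fun g : G => orderOf g = 2)).card = q ^ 2 := by
      rw [← h.hm2, mo, Nat.card_eq_fintype_card, Fintype.card_subtype]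
    have h2 : (Finset.univ.filter (fun g : G => orderOf g = 2 ∧ g • a = a)).card ≤ q := by
      have := inv_fix h a
      rwa [Nat.card_eq_fintype_card, Fintype.card_subtype] at this
    have h3 : (Finset.univ.filter (fun g : G => orderOf g = 2)).card =
        (Finset.univ.filter (fun g : G => orderOf g = 2 ∧ g • a = a)).card + T.card := by
      rw [hT, ← Finset.filter_filter, ← Finset.filter_filter, Finset.card_filter_add_card_filter_not]
    have h4 : q * (q - 1) + q = q ^ 2 := by
      obtain ⟨k, rfl⟩ := Nat.exists_eq_add_of_le (show 1 ≤ q by omega)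
      rw [Nat.add_sub_cancel_left]; ring
    omega
  have hTM' : T = M := Finset.eq_of_subset_of_card_le hTM (hMc.trans hTc)
  have hgM : g ∈ M := by
    rw [hM, Finset.mem_filter]
    refine ⟨Finset.mem_univ _, ?_, ?_⟩
    · rw [hga]; exact hab.symm
    · rw [mul_smul, hga, hgb]
  rw [← hTM', hT, Finset.mem_filter] at hgM
  rw [← sq, ← hgM.2.1]
  exact pow_orderOf_eq_one g

theorem H_comm {a b : Sylow p G} (hab : a ≠ b) :
    ∀ x ∈ stabilizer G a ⊓ stabilizer G b, ∀ y ∈ stabilizer G a ⊓ stabilizer G b, x * y = y * x := by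
  obtain ⟨s, hsa, hsb⟩ := exists_move (two h) hab hab.symm
  have hss := swap_inv h hab hsa hsb
  have hi : ∀ x ∈ stabilizer G a ⊓ stabilizer G b, s * x * s = x⁻¹ := by
    intro x hx
    have hxa : x • a = a := hx.1
    have hxb : x • b = b := hx.2
    have h1 := swap_inv h hab (g := s * x) (by rw [mul_smul, hxa, hsa]) (by rw [mul_smul, hxb, hsb])
    have h2 : (s * x * s) * x = 1 := by rw [← h1]; group
    exact eq_inv_of_mul_eq_one_left h2
  intro x hx y hy
  have h1 := hi _ (mul_mem hx hy)
  have h4 : s * (x * y) * s = (s * x * s) * (s * y * s) := by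
    calc s * (x * y) * s = s * x * (1 : G) * y * s := by group
      _ = s * x * (s * s) * y * s := by rw [hss]
      _ = (s * x * s) * (s * y * s) := by group
  rw [h4, hi x hx, hi y hy, mul_inv_rev] at h1
  have h5 := congrArg (·⁻¹) h1
  simp only [mul_inv_rev, inv_inv] at h5
  exact h5.symm

theorem main : ∃ (E : Type) (_ : Field E) (_ : Fintype E), Fintype.card E = q ∧
      Nonempty (G ≃* Matrix.ProjGenLinGroup (Fin 2) E) := by
  classical
  have := Fintype.ofFinite (Sylow p G)
  have hΩ : Fintype.card (Sylow p G) = q + 1 := by rw [← Nat.card_eq_fintype_card, card_Syl h]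
  have hq3 := q3 h
  obtain ⟨a, b, c, hab, hac, hbc⟩ : ∃ a b c : Sylow p G, a ≠ b ∧ a ≠ c ∧ b ≠ c :=
    Fintype.two_lt_card_iff.1 (by omega)
  have hmv := move3 h
  have hfix := fix3 h
  obtain ⟨s, hsa, hsb, hsc⟩ := hmv a b c b a c hab hac hbc hab.symm hbc hac
  have hfaith : FaithfulSMul G (Sylow p G) := by
    refine ⟨fun {g g'} hgg => ?_⟩
    exact eq_of_three hfix hab hac hbc (hgg a) (hgg b) (hgg c)
  have hev : Even (Nat.card ↥(stabilizer G a ⊓ stabilizer G b)) := by
    rw [card_H h hab]
    obtain ⟨k, hk⟩ := (q_facts h.hp h.hp2 h.hf h.hq).2.1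
    exact ⟨k, by omega⟩
  obtain ⟨z, u, K, C⟩ := Sharp3.exists_config (two h) hfix hmv hab hac hbc hsa hsb hsc hev
  have hcK := C.card_K
  rw [card_Syl h] at hcK
  obtain ⟨E, hE, hEf, hEc, he⟩ := H1NseC.pgl_of_comm C (H_comm h hab)
  exact ⟨E, hE, hEf, by rw [hEc]; omega, he⟩

end Cfsg.Agent.Lib.H1NseB
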