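import Mathlib
import Cfsg.Agent.Lib.H1NseA
import Cfsg.Agent.Lib.OrdDisc5

/-!
Numbers of elements of given order in `PGL₂(q)`, `q` odd (helper1).
-/

set_option autoImplicit false
set_option linter.unusedSectionVars false

namespace Cfsg.Agent.Lib.H1NseD

open Matrix H1NseA

/-- `PGL₂` -/
abbrev PG (F : Type*) [Field F] : Type _ := GL (Fin 2) F ⧸ Subgroup.center (GL (Fin 2) F)

variable {F : Type*} [Field F] [Fintype F]

theorem card_T0 : Nat.card {v : F × F × F // v.1 ^ 2 + v.2.1 * v.2.2 = 0} = Fintype.card F ^ 2 := by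
  classical
  let f : ({b : F // b ≠ 0} × F) ⊕ F → {v : F × F × F // v.1 ^ 2 + v.2.1 * v.2.2 = 0} := fun x =>
    match x with
    | Sum.inl (b, a) => ⟨(a, b.1, -(a ^ 2) / b.1), by
        have := b.2
        show a ^ 2 + b.1 * (-(a ^ 2) / b.1) = 0
        field_simp
        ring⟩
    | Sum.inr c => ⟨(0, 0, c), by simp⟩
  have hf : Function.Bijective f := by
    constructor
    · rintro (⟨b, a⟩ | c) (⟨b', a'⟩ | c') h
      · have h1 := congrArg (fun v : {v : F × F × F // v.1 ^ 2 + v.2.1 * v.2.2 = 0} => (v : F × F × F).1) h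
        have h2 := congrArg (fun v : {v : F × F × F // v.1 ^ 2 + v.2.1 * v.2.2 = 0} => (v : F × F × F).2.1) h
        have h3 : b = b' := Subtype.ext h2
        have h4 : a = a' := h1
        rw [h3, h4]
      · exfalso
        have h2 := congrArg (fun v : {v : F × F × F // v.1 ^ 2 + v.2.1 * v.2.2 = 0} => (v : F × F × F).2.1) h
        exact b.2 h2
      · exfalso
        have h2 := congrArg (fun v : {v : F × F × F // v.1 ^ 2 + v.2.1 * v.2.2 = 0} => (v : F × F × F).2.1) h
        exact b'.2 h2.symm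
      · have h2 := congrArg (fun v : {v : F × F × F // v.1 ^ 2 + v.2.1 * v.2.2 = 0} => (v : F × F × F).2.2) h
        have h3 : c = c' := h2
        rw [h3]
    · rintro ⟨⟨a, b, c⟩, h⟩
      have h' : a ^ 2 + b * c = 0 := h
      by_cases hb : b = 0
      · subst hb
        have ha : a = 0 := by
          rw [zero_mul, add_zero] at h'
          exact pow_eq_zero_iff two_ne_zero |>.1 h'
        refine ⟨Sum.inr c, ?_⟩
        apply Subtype.ext
        show ((0 : F), (0 : F), c) = (a, 0, c)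
        rw [ha]
      · refine ⟨Sum.inl (⟨b, hb⟩, a), ?_⟩
        apply Subtype.ext
        show (a, b, -(a ^ 2) / b) = (a, b, c)
        have : -(a ^ 2) / b = c := by
          rw [div_eq_iff hb]; linear_combination -h'
        rw [this]
  rw [← Nat.card_congr (Equiv.ofBijective f hf), Nat.card_sum, Nat.card_prod]
  have h1 : Nat.card {b : F // b ≠ 0} = Fintype.card F - 1 := by
    rw [Nat.card_eq_fintype_card, Fintype.card_subtype_compl, Fintype.card_subtype_eq]
  rw [h1, Nat.card_eq_fintype_card]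
  obtain ⟨k, hk⟩ := Nat.exists_eq_add_of_le (Fintype.card_pos (α := F))
  rw [hk]
  have : 0 + 1 + k - 1 = k := by omega
  rw [this]; ring

theorem mem_cen {g : GL (Fin 2) F} : g ∈ Subgroup.center (GL (Fin 2) F) ↔
    g.val 0 1 = 0 ∧ g.val 1 0 = 0 ∧ g.val 0 0 = g.val 1 1 := by
  rw [Matrix.GeneralLinearGroup.mem_center_iff_val_mem_range_scalar]
  constructor
  · rintro ⟨r, hr⟩
    rw [← hr]
    simp
  · rintro ⟨h1, h2, h3⟩
    refine ⟨g.val 0 0, ?_⟩
    ext i j
    fin_cases i <;> fin_cases j <;> simp [h1, h2, h3]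

/-- equality in `PGL₂` -/
theorem mk_eq {g h : GL (Fin 2) F} : (QuotientGroup.mk g : PG F) = QuotientGroup.mk h ↔
    ∃ r : F, r ≠ 0 ∧ ∀ i j, h.val i j = r * g.val i j := by
  rw [QuotientGroup.eq, Matrix.GeneralLinearGroup.mem_center_iff_val_mem_range_scalar]
  constructor
  · rintro ⟨r, hr⟩
    have h1 : h.val = r • g.val := by
      have h2 : g.val * (g⁻¹ * h).val = h.val := by
        rw [← Units.val_mul, mul_inv_cancel_left]
      rw [← hr] at h2
      rw [← h2]
      ext i j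
      simp [mul_comm]
    refine ⟨r, ?_, fun i j => by rw [h1]; rfl⟩
    rintro rfl
    rw [zero_smul] at h1
    have h3 := h.isUnit
    have h4 : (h : Matrix (Fin 2) (Fin 2) F) = 0 := h1
    rw [h4] at h3
    exact not_isUnit_zero h3
  · rintro ⟨r, hr, h1⟩
    refine ⟨r, ?_⟩
    have h2 : h.val = g.val * Matrix.scalar (Fin 2) r := by
      ext i j
      rw [h1]
      simp [mul_comm]
    rw [Units.val_mul, h2, ← mul_assoc, ← Units.val_mul, inv_mul_cancel, Units.val_one, one_mul]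

theorem mk_eq_one {g : GL (Fin 2) F} : (QuotientGroup.mk g : PG F) = 1 ↔
    g.val 0 1 = 0 ∧ g.val 1 0 = 0 ∧ g.val 0 0 = g.val 1 1 := by
  rw [QuotientGroup.eq_one_iff, mem_cen]

/-- the element `1 + N` -/
def uni (v : {v : F × F × F // v.1 ^ 2 + v.2.1 * v.2.2 = 0}) : GL (Fin 2) F where
  val := !![1 + v.1.1, v.1.2.1; v.1.2.2, 1 - v.1.1]
  inv := !![1 - v.1.1, -v.1.2.1; -v.1.2.2, 1 + v.1.1]
  val_inv := by
    have h := v.2
    rw [Matrix.mul_fin_two, Matrix.one_fin_two]
    congr 1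
    simp only [Matrix.vecCons_inj, and_true]
    refine ⟨⟨?_, ?_⟩, ?_, ?_⟩
    · linear_combination -h
    · ring
    · ring
    · linear_combination -h
  inv_val := by
    have h := v.2
    rw [Matrix.mul_fin_two, Matrix.one_fin_two]
    congr 1
    simp only [Matrix.vecCons_inj, and_true]
    refine ⟨⟨?_, ?_⟩, ?_, ?_⟩
    · linear_combination -h
    · ring
    · ring
    · linear_combination -h

theorem uni_pow (v : {v : F × F × F // v.1 ^ 2 + v.2.1 * v.2.2 = 0}) (n : ℕ) :
    (uni v ^ n).val = !![1 + n * v.1.1, n * v.1.2.1; n * v.1.2.2, 1 - n * v.1.1] := by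
  have h := v.2
  induction n with
  | zero => rw [pow_zero, Units.val_one, Matrix.one_fin_two]; simp
  | succ n ih =>
    rw [pow_succ, Units.val_mul, ih]
    show !![1 + n * v.1.1, n * v.1.2.1; n * v.1.2.2, 1 - n * v.1.1] *
      !![1 + v.1.1, v.1.2.1; v.1.2.2, 1 - v.1.1] = _
    rw [Matrix.mul_fin_two]
    congr 1
    simp only [Matrix.vecCons_inj, and_true]
    push_cast
    refine ⟨⟨?_, ?_⟩, ?_, ?_⟩
    · linear_combination (n : F) * h
    · ring
    · ring
    · linear_combination (n : F) * h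

section

variable {p : ℕ} [hp : Fact p.Prime] [CharP F p] (hp2 : p ≠ 2)

include hp2 in
theorem two_ne : (2 : F) ≠ 0 := by
  intro h
  have h1 : ((2 : ℕ) : F) = 0 := by exact_mod_cast h
  rw [CharP.cast_eq_zero_iff F p] at h1
  exact hp2 ((Nat.prime_dvd_prime_iff_eq hp.out Nat.prime_two).1 h1)

include hp2

theorem order_uni (v : {v : F × F × F // v.1 ^ 2 + v.2.1 * v.2.2 = 0}) (hv : v.1 ≠ 0) :
    orderOf (QuotientGroup.mk (uni v) : PG F) = p := by
  apply orderOf_eq_prime
  · rw [← QuotientGroup.mk_pow, mk_eq_one, uni_pow]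
    simp
  · rw [Ne, mk_eq_one]
    rintro ⟨h1, h2, h3⟩
    have h1' : v.1.2.1 = 0 := h1
    have h2' : v.1.2.2 = 0 := h2
    have h3' : 1 + v.1.1 = 1 - v.1.1 := h3
    have h4 : (2 : F) * v.1.1 = 0 := by linear_combination h3'
    have h5 := (mul_eq_zero.1 h4).resolve_left (two_ne hp2)
    apply hv
    ext
    · exact h5
    · exact h1'
    · exact h2'

theorem exists_uni {x : PG F} (hx : orderOf x = p) :
    ∃ v : {v : F × F × F // v.1 ^ 2 + v.2.1 * v.2.2 = 0}, v.1 ≠ 0 ∧ (QuotientGroup.mk (uni v) : PG F) = x := by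
  obtain ⟨g, rfl⟩ := QuotientGroup.mk_surjective x
  have hxp : (QuotientGroup.mk g : PG F) ^ p = 1 := by rw [← hx]; exact pow_orderOf_eq_one _
  rw [← QuotientGroup.mk_pow, QuotientGroup.eq_one_iff,
    Matrix.GeneralLinearGroup.mem_center_iff_val_mem_range_scalar] at hxp
  obtain ⟨μ, hμ⟩ := hxp
  obtain ⟨ν, hν⟩ : ∃ ν : F, ν ^ p = μ :=
    (Finite.injective_iff_surjective.1 (frobenius_inj F p)) μ
  set A := g.val with hA
  have hAp : A ^ p = Matrix.scalar (Fin 2) μ := by rw [hμ, Units.val_pow_eq_pow_val]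
  have hN : (A - Matrix.scalar (Fin 2) ν) ^ p = 0 := by
    rw [sub_pow_char_of_commute]
    · rw [hAp, ← map_pow, hν, sub_self]
    · exact (Matrix.scalar_commute ν (fun r' => mul_comm _ _) A).symm
  have hν0 : ν ≠ 0 := by
    rintro rfl
    rw [zero_pow hp.out.ne_zero] at hν
    rw [← hν, map_zero] at hμ
    have h3 := (g ^ p).isUnit
    have h4 : ((g ^ p : GL (Fin 2) F) : Matrix (Fin 2) (Fin 2) F) = 0 := hμ.symm
    rw [h4] at h3
    exact not_isUnit_zero h3
  set N := A - Matrix.scalar (Fin 2) ν with hNdef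
  have hdet : N.det = 0 := by
    have h1 : (N ^ p).det = 0 := by rw [hN, Matrix.det_zero]
    rw [Matrix.det_pow] at h1
    exact pow_eq_zero_iff hp.out.ne_zero |>.1 h1
  have htr : N.trace = 0 := by
    have h1 : IsNilpotent N := ⟨p, hN⟩
    exact (Matrix.isNilpotent_trace_of_isNilpotent h1).eq_zero
  rw [Matrix.det_fin_two] at hdet
  rw [Matrix.trace_fin_two] at htr
  have h11 : N 1 1 = - N 0 0 := by linear_combination htr
  have hA00 : A 0 0 = ν + N 0 0 := by simp [hNdef]
  have hA01 : A 0 1 = N 0 1 := by simp [hNdef]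
  have hA10 : A 1 0 = N 1 0 := by simp [hNdef]
  have hA11 : A 1 1 = ν - N 0 0 := by
    have : A 1 1 = ν + N 1 1 := by simp [hNdef]
    rw [this, h11]; ring
  let v : {v : F × F × F // v.1 ^ 2 + v.2.1 * v.2.2 = 0} := ⟨(N 0 0 / ν, N 0 1 / ν, N 1 0 / ν), by
    show (N 0 0 / ν) ^ 2 + (N 0 1 / ν) * (N 1 0 / ν) = 0
    rw [h11] at hdet
    field_simp
    linear_combination -hdet⟩
  have hmk : (QuotientGroup.mk (uni v) : PG F) = QuotientGroup.mk g := by
    rw [mk_eq]
    refine ⟨ν, hν0, ?_⟩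
    intro i j
    fin_cases i <;> fin_cases j
    · show A 0 0 = ν * (1 + N 0 0 / ν)
      rw [hA00]; field_simp
    · show A 0 1 = ν * (N 0 1 / ν)
      rw [hA01]; field_simp
    · show A 1 0 = ν * (N 1 0 / ν)
      rw [hA10]; field_simp
    · show A 1 1 = ν * (1 - N 0 0 / ν)
      rw [hA11]; field_simp
  refine ⟨v, ?_, hmk⟩
  intro hv
  have h1 : (QuotientGroup.mk (uni v) : PG F) = 1 := by
    rw [mk_eq_one]
    have e1 : v.1.1 = 0 := by rw [hv]; rfl
    have e2 : v.1.2.1 = 0 := by rw [hv]; rfl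
    have e3 : v.1.2.2 = 0 := by rw [hv]; rfl
    refine ⟨e2, e3, ?_⟩
    show 1 + v.1.1 = 1 - v.1.1
    rw [e1]; ring
  rw [← hmk, h1, orderOf_one] at hx
  exact hp.out.one_lt.ne hx

theorem uni_inj {v w : {v : F × F × F // v.1 ^ 2 + v.2.1 * v.2.2 = 0}}
    (h : (QuotientGroup.mk (uni v) : PG F) = QuotientGroup.mk (uni w)) : v = w := by
  rw [mk_eq] at h
  obtain ⟨r, hr, h⟩ := h
  have h00 : 1 + w.1.1 = r * (1 + v.1.1) := h 0 0
  have h01 : w.1.2.1 = r * v.1.2.1 := h 0 1
  have h10 : w.1.2.2 = r * v.1.2.2 := h 1 0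
  have h11 : 1 - w.1.1 = r * (1 - v.1.1) := h 1 1
  have h2 : (2 : F) * (r - 1) = 0 := by linear_combination -h00 - h11
  have hr1 : r = 1 := sub_eq_zero.1 ((mul_eq_zero.1 h2).resolve_left (two_ne hp2))
  rw [hr1, one_mul] at h00 h01 h10
  apply Subtype.ext
  ext
  · exact (add_left_cancel h00).symm
  · exact h01.symm
  · exact h10.symm

theorem mo_p : mo (PG F) p = Fintype.card F ^ 2 - 1 := by
  classical
  let f : {v : {v : F × F × F // v.1 ^ 2 + v.2.1 * v.2.2 = 0} // v ≠ ⟨0, by simp⟩} → {x : PG F // orderOf x = p} :=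
    fun v => ⟨QuotientGroup.mk (uni v.1), order_uni hp2 v.1 (fun h => v.2 (Subtype.ext h))⟩
  have hf : Function.Bijective f := by
    constructor
    · intro v w h
      have h1 : (QuotientGroup.mk (uni v.1) : PG F) = QuotientGroup.mk (uni w.1) := congrArg Subtype.val h
      exact Subtype.ext (uni_inj hp2 h1)
    · rintro ⟨x, hx⟩
      obtain ⟨v, hv, hvx⟩ := exists_uni hp2 hx
      exact ⟨⟨v, fun h => hv (congrArg Subtype.val h)⟩, Subtype.ext hvx⟩
  rw [mo, ← Nat.card_congr (Equiv.ofBijective f hf), ← card_T0, Nat.card_eq_fintype_card,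
    Nat.card_eq_fintype_card, Fintype.card_subtype_compl, Fintype.card_subtype_eq]

/-- trace zero matrices -/
theorem card_W : Nat.card {v : F × F × F // v.1 ^ 2 + v.2.1 * v.2.2 ≠ 0} =
    (Fintype.card F - 1) * Fintype.card F ^ 2 := by
  classical
  have h1 := Nat.card_congr (Equiv.sumCompl (fun v : F × F × F => v.1 ^ 2 + v.2.1 * v.2.2 = 0))
  rw [Nat.card_sum, card_T0, Nat.card_prod, Nat.card_prod, Nat.card_eq_fintype_card (α := F)] at h1
  have h2 : Nat.card {v : F × F × F // ¬ (v.1 ^ 2 + v.2.1 * v.2.2 = 0)} =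
    (Fintype.card F - 1) * Fintype.card F ^ 2 := by
    obtain ⟨k, hk⟩ := Nat.exists_eq_add_of_le (Fintype.card_pos (α := F))
    rw [hk] at h1 ⊢
    have h3 : 0 + 1 + k - 1 = k := by omega
    rw [h3]
    have h4 : (0 + 1 + k) * ((0 + 1 + k) * (0 + 1 + k)) = (0 + 1 + k) ^ 2 + k * (0 + 1 + k) ^ 2 := by ring
    rw [h4] at h1
    exact Nat.add_left_cancel h1
  exact h2

end

/-- the involution attached to a trace zero matrix -/
def inv0 (v : {v : F × F × F // v.1 ^ 2 + v.2.1 * v.2.2 ≠ 0}) : GL (Fin 2) F where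
  val := !![v.1.1, v.1.2.1; v.1.2.2, -v.1.1]
  inv := (v.1.1 ^ 2 + v.1.2.1 * v.1.2.2)⁻¹ • !![v.1.1, v.1.2.1; v.1.2.2, -v.1.1]
  val_inv := by
    have h := v.2
    rw [Matrix.mul_smul, Matrix.mul_fin_two]
    have h1 : !![v.1.1 * v.1.1 + v.1.2.1 * v.1.2.2, v.1.1 * v.1.2.1 + v.1.2.1 * -v.1.1;
      v.1.2.2 * v.1.1 + -v.1.1 * v.1.2.2, v.1.2.2 * v.1.2.1 + -v.1.1 * -v.1.1] =
      (v.1.1 ^ 2 + v.1.2.1 * v.1.2.2) • (1 : Matrix (Fin 2) (Fin 2) F) := by
      ext i j
      fin_cases i <;> fin_cases j <;> simp <;> ring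
    rw [h1, smul_smul, inv_mul_cancel₀ h, one_smul]
  inv_val := by
    have h := v.2
    rw [Matrix.smul_mul, Matrix.mul_fin_two]
    have h1 : !![v.1.1 * v.1.1 + v.1.2.1 * v.1.2.2, v.1.1 * v.1.2.1 + v.1.2.1 * -v.1.1;
      v.1.2.2 * v.1.1 + -v.1.1 * v.1.2.2, v.1.2.2 * v.1.2.1 + -v.1.1 * -v.1.1] =
      (v.1.1 ^ 2 + v.1.2.1 * v.1.2.2) • (1 : Matrix (Fin 2) (Fin 2) F) := by
      ext i j
      fin_cases i <;> fin_cases j <;> simp <;> ring
    rw [h1, smul_smul, inv_mul_cancel₀ h, one_smul]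

section

variable {p : ℕ} [hp : Fact p.Prime] [CharP F p] (hp2 : p ≠ 2)
include hp2

theorem order_inv0 (v : {v : F × F × F // v.1 ^ 2 + v.2.1 * v.2.2 ≠ 0}) :
    orderOf (QuotientGroup.mk (inv0 v) : PG F) = 2 := by
  have := Fact.mk Nat.prime_two
  apply orderOf_eq_prime
  · rw [← QuotientGroup.mk_pow, mk_eq_one, sq, Units.val_mul]
    show (!![v.1.1, v.1.2.1; v.1.2.2, -v.1.1] * !![v.1.1, v.1.2.1; v.1.2.2, -v.1.1]) 0 1 = 0 ∧
      (!![v.1.1, v.1.2.1; v.1.2.2, -v.1.1] * !![v.1.1, v.1.2.1; v.1.2.2, -v.1.1]) 1 0 = 0 ∧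
      (!![v.1.1, v.1.2.1; v.1.2.2, -v.1.1] * !![v.1.1, v.1.2.1; v.1.2.2, -v.1.1]) 0 0 =
      (!![v.1.1, v.1.2.1; v.1.2.2, -v.1.1] * !![v.1.1, v.1.2.1; v.1.2.2, -v.1.1]) 1 1
    rw [Matrix.mul_fin_two]
    refine ⟨?_, ?_, ?_⟩
    · show v.1.1 * v.1.2.1 + v.1.2.1 * -v.1.1 = 0
      ring
    · show v.1.2.2 * v.1.1 + -v.1.1 * v.1.2.2 = 0
      ring
    · show v.1.1 * v.1.1 + v.1.2.1 * v.1.2.2 = v.1.2.2 * v.1.2.1 + -v.1.1 * -v.1.1
      ring
  · rw [Ne, mk_eq_one]
    rintro ⟨h1, h2, h3⟩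
    have h1' : v.1.2.1 = 0 := h1
    have h2' : v.1.2.2 = 0 := h2
    have h3' : v.1.1 = - v.1.1 := h3
    have h4 : (2 : F) * v.1.1 = 0 := by linear_combination h3'
    have h5 := (mul_eq_zero.1 h4).resolve_left (two_ne hp2)
    apply v.2
    rw [h5, h1', h2']; ring

theorem exists_inv0 {x : PG F} (hx : orderOf x = 2) :
    ∃ v : {v : F × F × F // v.1 ^ 2 + v.2.1 * v.2.2 ≠ 0}, (QuotientGroup.mk (inv0 v) : PG F) = x := by
  obtain ⟨g, rfl⟩ := QuotientGroup.mk_surjective x
  have hx2 : (QuotientGroup.mk g : PG F) ^ 2 = 1 := by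
    have h0 := pow_orderOf_eq_one (QuotientGroup.mk g : PG F)
    rwa [hx] at h0
  have hx1 : (QuotientGroup.mk g : PG F) ≠ 1 := by
    intro h
    rw [h, orderOf_one] at hx
    omega
  rw [← QuotientGroup.mk_pow, mk_eq_one, sq, Units.val_mul] at hx2
  obtain ⟨h01, h10, hd⟩ := hx2
  rw [Matrix.mul_apply, Fin.sum_univ_two] at h01 h10 hd
  rw [Matrix.mul_apply, Fin.sum_univ_two] at hd
  have htr : g.val 0 0 + g.val 1 1 = 0 := by
    by_contra hne
    apply hx1
    rw [mk_eq_one]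
    refine ⟨?_, ?_, ?_⟩
    · have : g.val 0 1 * (g.val 0 0 + g.val 1 1) = 0 := by linear_combination h01
      exact (mul_eq_zero.1 this).resolve_right hne
    · have : g.val 1 0 * (g.val 0 0 + g.val 1 1) = 0 := by linear_combination h10
      exact (mul_eq_zero.1 this).resolve_right hne
    · have : (g.val 0 0 - g.val 1 1) * (g.val 0 0 + g.val 1 1) = 0 := by linear_combination hd
      exact sub_eq_zero.1 ((mul_eq_zero.1 this).resolve_right hne)
  have hdet : g.val.det ≠ 0 := by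
    have h1 : IsUnit g.val.det := (Matrix.isUnit_iff_isUnit_det _).1 g.isUnit
    exact h1.ne_zero
  rw [Matrix.det_fin_two] at hdet
  have h11 : g.val 1 1 = - g.val 0 0 := by linear_combination htr
  refine ⟨⟨(g.val 0 0, g.val 0 1, g.val 1 0), ?_⟩, ?_⟩
  · intro h
    apply hdet
    have h' : g.val 0 0 ^ 2 + g.val 0 1 * g.val 1 0 = 0 := h
    rw [h11]
    linear_combination -h'
  · congr 1
    apply Units.ext
    ext i j
    fin_cases i <;> fin_cases j
    · rfl
    · rfl
    · rfl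
    · exact h11.symm

theorem mo_two : mo (PG F) 2 = Fintype.card F ^ 2 := by
  classical
  have hch : ∀ x : {x : PG F // orderOf x = 2}, ∃ v : {v : F × F × F // v.1 ^ 2 + v.2.1 * v.2.2 ≠ 0},
      (QuotientGroup.mk (inv0 v) : PG F) = x := fun x => exists_inv0 hp2 x.2
  choose r hr using hch
  let f : {x : PG F // orderOf x = 2} × {s : F // s ≠ 0} → {v : F × F × F // v.1 ^ 2 + v.2.1 * v.2.2 ≠ 0} :=
    fun y => ⟨(y.2.1 * (r y.1).1.1, y.2.1 * (r y.1).1.2.1, y.2.1 * (r y.1).1.2.2), by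
      have h1 := (r y.1).2
      have h2 := y.2.2
      show (y.2.1 * (r y.1).1.1) ^ 2 + (y.2.1 * (r y.1).1.2.1) * (y.2.1 * (r y.1).1.2.2) ≠ 0
      have h3 : (y.2.1 * (r y.1).1.1) ^ 2 + (y.2.1 * (r y.1).1.2.1) * (y.2.1 * (r y.1).1.2.2) =
        y.2.1 ^ 2 * ((r y.1).1.1 ^ 2 + (r y.1).1.2.1 * (r y.1).1.2.2) := by ring
      rw [h3]
      exact mul_ne_zero (pow_ne_zero 2 h2) h1⟩
  have hfmk : ∀ y, (QuotientGroup.mk (inv0 (f y)) : PG F) = y.1 := by
    intro y
    rw [← hr y.1]
    symm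
    rw [mk_eq]
    refine ⟨y.2.1, y.2.2, ?_⟩
    intro i j
    fin_cases i <;> fin_cases j
    · rfl
    · rfl
    · rfl
    · show -(y.2.1 * (r y.1).1.1) = y.2.1 * -(r y.1).1.1
      ring
  have hf : Function.Bijective f := by
    constructor
    · rintro ⟨x, s⟩ ⟨x', s'⟩ h
      have h1 : x = x' := by
        apply Subtype.ext
        rw [← hfmk (x, s), ← hfmk (x', s'), h]
      subst h1
      have h2 : ∀ a : F, a ≠ 0 → s.1 * a = s'.1 * a → s = s' := fun a ha h =>
        Subtype.ext (mul_right_cancel₀ ha h)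
      have e1 : s.1 * (r x).1.1 = s'.1 * (r x).1.1 :=
        congrArg (fun v : {v : F × F × F // v.1 ^ 2 + v.2.1 * v.2.2 ≠ 0} => (v : F × F × F).1) h
      have e2 : s.1 * (r x).1.2.1 = s'.1 * (r x).1.2.1 :=
        congrArg (fun v : {v : F × F × F // v.1 ^ 2 + v.2.1 * v.2.2 ≠ 0} => (v : F × F × F).2.1) h
      have h5 : s = s' := by
        by_cases ha : (r x).1.1 = 0
        · by_cases hb : (r x).1.2.1 = 0
          · exfalso
            apply (r x).2
            rw [ha, hb]; ring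
          · exact h2 _ hb e2
        · exact h2 _ ha e1
      rw [h5]
    · intro w
      let x : {x : PG F // orderOf x = 2} := ⟨QuotientGroup.mk (inv0 w), order_inv0 hp2 w⟩
      have h1 : (QuotientGroup.mk (inv0 (r x)) : PG F) = QuotientGroup.mk (inv0 w) := hr x
      rw [mk_eq] at h1
      obtain ⟨s, hs, h1⟩ := h1
      refine ⟨(x, ⟨s, hs⟩), ?_⟩
      apply Subtype.ext
      have e1 : w.1.1 = s * (r x).1.1 := h1 0 0
      have e2 : w.1.2.1 = s * (r x).1.2.1 := h1 0 1
      have e3 : w.1.2.2 = s * (r x).1.2.2 := h1 1 0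
      ext
      · exact e1.symm
      · exact e2.symm
      · exact e3.symm
  have h1 := Nat.card_congr (Equiv.ofBijective f hf)
  rw [card_W hp2, Nat.card_prod] at h1
  have h2 : Nat.card {s : F // s ≠ 0} = Fintype.card F - 1 := by
    rw [Nat.card_eq_fintype_card, Fintype.card_subtype_compl, Fintype.card_subtype_eq]
  rw [h2, mul_comm] at h1
  have h3 : 0 < Fintype.card F - 1 := by
    have := Fintype.one_lt_card (α := F)
    omega
  exact Nat.eq_of_mul_eq_mul_left h3 h1

/-- the transvection -/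
noncomputable def up (t : F) : GL (Fin 2) F := Matrix.GeneralLinearGroup.upperRightHom t

omit hp2 in
theorem up_val (t : F) : (up t).val = !![1, t; 0, 1] := rfl

/-- an element commuting (projectively) with a transvection has order dividing `p` -/
theorem comm_uni {t : F} (ht : t ≠ 0) {g : GL (Fin 2) F}
    (h : (QuotientGroup.mk g : PG F) * QuotientGroup.mk (up t) = QuotientGroup.mk (up t) * QuotientGroup.mk g) :
    (QuotientGroup.mk g : PG F) ^ p = 1 := by
  rw [← QuotientGroup.mk_mul, ← QuotientGroup.mk_mul, mk_eq] at h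
  obtain ⟨r, hr, h⟩ := h
  obtain ⟨a, b, c, d, hg⟩ : ∃ a b c d : F, g.val = !![a, b; c, d] :=
    ⟨g.val 0 0, g.val 0 1, g.val 1 0, g.val 1 1, by rw [← Matrix.eta_fin_two]⟩
  have e1 : (g * up t).val = !![a, a * t + b; c, c * t + d] := by
    rw [Units.val_mul, up_val, hg, Matrix.mul_fin_two]
    simp
  have e2 : (up t * g).val = !![a + t * c, b + t * d; c, d] := by
    rw [Units.val_mul, up_val, hg, Matrix.mul_fin_two]
    simp
  rw [e1, e2] at h
  have h00 : a + t * c = r * a := h 0 0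
  have h01 : b + t * d = r * (a * t + b) := h 0 1
  have h10 : c = r * c := h 1 0
  have h11 : d = r * (c * t + d) := h 1 1
  have hdet : g.val.det ≠ 0 := by
    have h1 : IsUnit g.val.det := (Matrix.isUnit_iff_isUnit_det _).1 g.isUnit
    exact h1.ne_zero
  rw [hg, Matrix.det_fin_two_of] at hdet
  have hc0 : c = 0 := by
    by_contra hc
    have hr1 : r = 1 := by
      have : (r - 1) * c = 0 := by linear_combination -h10
      exact sub_eq_zero.1 ((mul_eq_zero.1 this).resolve_right hc)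
    rw [hr1, one_mul] at h00
    have : t * c = 0 := by linear_combination h00
    exact (mul_ne_zero ht hc) this
  rw [hc0, mul_zero, sub_zero] at hdet
  have ha : a ≠ 0 := fun h' => hdet (by rw [h', zero_mul])
  have hr1 : r = 1 := by
    have : (r - 1) * a = 0 := by rw [hc0] at h00; linear_combination -h00
    exact sub_eq_zero.1 ((mul_eq_zero.1 this).resolve_right ha)
  have hda : d = a := by
    rw [hr1, one_mul] at h01
    have : t * (d - a) = 0 := by linear_combination h01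
    exact sub_eq_zero.1 ((mul_eq_zero.1 this).resolve_left ht)
  have hpow : ∀ n : ℕ, (g ^ (n + 1)).val = !![a ^ (n + 1), (n + 1) * a ^ n * b; 0, a ^ (n + 1)] := by
    intro n
    induction n with
    | zero => rw [zero_add, pow_one, hg, hc0, hda]; simp
    | succ n ih =>
      rw [pow_succ, Units.val_mul, ih, hg, hc0, hda, Matrix.mul_fin_two]
      congr 1
      simp only [Matrix.vecCons_inj, and_true]
      push_cast
      refine ⟨⟨?_, ?_⟩, ?_, ?_⟩ <;> ring
  rw [← QuotientGroup.mk_pow, mk_eq_one]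
  obtain ⟨k, hk⟩ := Nat.exists_eq_succ_of_ne_zero hp.out.ne_zero
  rw [hk, Nat.succ_eq_add_one, hpow k]
  have hp0 : ((k : F) + 1) = 0 := by
    have h1 : ((p : ℕ) : F) = 0 := CharP.cast_eq_zero F p
    rw [hk] at h1
    push_cast at h1
    exact h1
  refine ⟨?_, rfl, rfl⟩
  show ((k : F) + 1) * a ^ k * b = 0
  rw [hp0, zero_mul, zero_mul]

theorem mo_other {n : ℕ} (hn1 : n ≠ 1) (hnp : n ≠ p) : Fintype.card F ∣ mo (PG F) n := by
  classical
  let ψ : F → ConjAct (PG F) := fun t => ConjAct.toConjAct (QuotientGroup.mk (up t) : PG F)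
  have hψadd : ∀ s t, ψ (s + t) = ψ s * ψ t := by
    intro s t
    show ConjAct.toConjAct (QuotientGroup.mk (up (s + t)) : PG F) = _
    have : up (s + t) = up s * up t := AddChar.map_add_eq_mul _ s t
    rw [this]
    rfl
  have hψinj : ∀ t, ψ t = 1 → t = 0 := by
    intro t h
    have h1 : (QuotientGroup.mk (up t) : PG F) = 1 := h
    rw [mk_eq_one] at h1
    exact h1.1
  let Ψ : Multiplicative F →* ConjAct (PG F) := {
    toFun := fun t => ψ t.toAdd
    map_one' := by
      show ConjAct.toConjAct (QuotientGroup.mk (up (0 : F)) : PG F) = 1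
      have : up (0 : F) = 1 := AddChar.map_zero_eq_one _
      rw [this]
      rfl
    map_mul' := fun s t => hψadd _ _ }
  have hΨinj : Function.Injective Ψ := by
    rw [injective_iff_map_eq_one]
    intro t ht
    exact hψinj _ ht
  have hcard : Nat.card Ψ.range = Fintype.card F := by
    rw [← Nat.card_congr (MonoidHom.ofInjective hΨinj).toEquiv, Nat.card_congr Multiplicative.toAdd,
      Nat.card_eq_fintype_card]
  have key := OrdDisc.card_dvd_of_free_set (G := ConjAct (PG F)) (Ω := PG F) Ψ.range {x : PG F | orderOf x = n}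
    (by
      rintro _ ⟨t, rfl⟩ x hx
      show orderOf (Ψ t • x) = n
      have hx' : orderOf x = n := hx
      rw [ConjAct.smul_def, ← hx']
      exact orderOf_injective (MulAut.conj (ConjAct.ofConjAct (Ψ t))).toMonoidHom
        (MulAut.conj (ConjAct.ofConjAct (Ψ t))).injective x)
    (by
      rintro _ ⟨t, rfl⟩ x hx hfix
      have hx' : orderOf x = n := hx
      by_contra hne
      have ht : t.toAdd ≠ 0 := by
        intro h
        apply hne
        have : t = 1 := h
        rw [this, map_one]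
      rw [ConjAct.smul_def, mul_inv_eq_iff_eq_mul] at hfix
      obtain ⟨g, rfl⟩ := QuotientGroup.mk_surjective x
      have h1 := comm_uni hp2 ht (g := g) hfix.symm
      have h2 := orderOf_dvd_of_pow_eq_one h1
      have h3 : orderOf (QuotientGroup.mk g : PG F) = n := hx'
      rw [h3] at h2
      rcases (Nat.dvd_prime hp.out).1 h2 with h4 | h4
      · exact hn1 h4
      · exact hnp h4)
  rw [hcard] at key
  exact key

end

end Cfsg.Agent.Lib.H1NseD
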