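import Cfsg.Agent.Lib.Layer
import Cfsg.Agent.Lib.Cores
import Cfsg.Agent.Lib.SubgroupTools
import Cfsg.Agent.Lib.SubnormalizerP
import Cfsg.Prelude.Def_SubgroupEmbedding
import Cfsg.Prelude.Def_Transfer
import Cfsg.Agent.S3012

/-!
# Sidki pairs: reduction of a minimal counterexample (helper1)
-/

set_option autoImplicit false
set_option linter.all false

namespace Cfsg.Agent.Lib.H1Sidki

open Cfsg Subgroup Cfsg.Agent.Lib.Components

universe u

section abelian

variable {G : Type u} [Group G] [Finite G]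

omit [Finite G] in
theorem eq_one_of_sq {K : Subgroup G} (hodd : Odd (Nat.card K)) {z : G} (hz : z ∈ K) (h : z = z⁻¹) : z = 1 := by
  have h1 : z ^ 2 = 1 := by
    rw [pow_two]; nth_rewrite 2 [h]; exact mul_inv_cancel z
  have h2 : orderOf z ∣ 2 := orderOf_dvd_of_pow_eq_one h1
  have h3 : orderOf z ∣ Nat.card K := Subgroup.orderOf_dvd_natCard _ hz
  have h4 := Nat.dvd_gcd h2 h3
  rw [Nat.Coprime.gcd_eq_one hodd.coprime_two_left, Nat.dvd_one, orderOf_eq_one_iff] at h4
  exact h4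

theorem abelian_case (K : Subgroup G) (hK : ∀ a ∈ K, ∀ b ∈ K, a * b = b * a) (hodd : Odd (Nat.card K))
    (n : ℕ) : ∀ (Y : Subgroup G), Nat.card Y = n → (∀ a ∈ Y, ∀ b ∈ Y, a * b = b * a) →
      (∀ a ∈ Y, a * a = 1) → Y ≤ normalizer (K : Set G) → Y ⊓ centralizer (K : Set G) = ⊥ →
      ∃ k ∈ K, ∃ y ∈ Y, y * k * y⁻¹ = k⁻¹ ∧ ∀ w ∈ Y, w * k = k * w → w = 1 := by
  induction n using Nat.strong_induction_on with
  | _ n ih =>
  intro Y hn hYc hYs hYK hYf
  have hYi : ∀ a ∈ Y, a⁻¹ = a := fun a ha => inv_eq_of_mul_eq_one_left (hYs a ha)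
  have hnorm : ∀ y ∈ Y, ∀ k ∈ K, y * k * y⁻¹ ∈ K := fun y hy k hk => (mem_normalizer_iff.1 (hYK hy) k).1 hk
  by_cases hYb : Y = ⊥
  · refine ⟨1, one_mem _, 1, one_mem _, by simp, ?_⟩
    intro w hw _
    rw [hYb, mem_bot] at hw
    exact hw
  obtain ⟨u, huY, hu1⟩ : ∃ u ∈ Y, u ≠ 1 := by
    by_contra hcon
    push Not at hcon
    exact hYb (by rw [eq_bot_iff]; intro x hx; exact mem_bot.2 (hcon x hx))
  obtain ⟨W, ⟨hWY, huW⟩, hWmax⟩ := Set.Finite.exists_maximal (s := {W : Subgroup G | W ≤ Y ∧ u ∉ W})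
    (Set.toFinite _) ⟨⊥, bot_le, fun h => hu1 (mem_bot.1 h)⟩
  have hWu : ∀ y ∈ Y, y ∉ W → y * u ∈ W := by
    intro y hy hyW
    have h1 : u ∈ W ⊔ zpowers y := by
      by_contra h
      have h2 := hWmax (y := W ⊔ zpowers y) ⟨sup_le hWY (zpowers_le.2 hy), h⟩ le_sup_left
      exact hyW (h2 ((le_sup_right : zpowers y ≤ _) (mem_zpowers y)))
    rw [SubgroupTools.mem_sup_of_le_normalizer] at h1
    · obtain ⟨w, hw, k, hk, hwk⟩ := h1
      obtain ⟨m, rfl⟩ := mem_zpowers_iff.1 hk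
      have hyy := hYs y hy
      rcases Int.even_or_odd m with ⟨j, hj⟩ | ⟨j, hj⟩
      · exfalso
        rw [hj, zpow_add, ← (Commute.refl y).mul_zpow, hyy, one_zpow, mul_one] at hwk
        exact huW (hwk ▸ hw)
      · rw [hj, zpow_add, zpow_mul, zpow_one, zpow_ofNat, pow_two, hyy, one_zpow, one_mul] at hwk
        rw [← hwk, ← mul_assoc, hYc y hy w (hWY hw), mul_assoc, hyy, mul_one]
        exact hw
    · rw [zpowers_le, mem_normalizer_iff]
      intro x
      constructor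
      · intro hx
        rw [hYc y hy x (hWY hx), mul_inv_cancel_right]; exact hx
      · intro hx
        have h3 := hYc y hy _ (hWY hx)
        have h4 : y * x * y⁻¹ = x := by
          have h5 : y * (y * x * y⁻¹) = y * x := by rw [h3]; group
          exact mul_left_cancel h5
        rwa [h4] at hx
  have hW2 : ∀ a ∈ Y, a ∉ W → ∀ b ∈ Y, b ∉ W → a * b ∈ W := by
    intro a ha haW b hb hbW
    have h1 := mul_mem (hWu a ha haW) (hWu b hb hbW)
    have h2 : a * u * (b * u) = a * b := by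
      calc a * u * (b * u) = a * (u * b) * u := by group
        _ = a * (b * u) * u := by rw [hYc u huY b hb]
        _ = a * b * (u * u) := by group
        _ = a * b := by rw [hYs u huY, mul_one]
    rwa [h2] at h1
  have hcard : Nat.card W < n := by
    rw [← hn]
    refine lt_of_le_of_ne (Subgroup.card_le_of_le hWY) fun h => huW ?_
    rw [Subgroup.eq_of_le_of_card_ge hWY h.ge]; exact huY
  obtain ⟨k₁, hk₁, w₁, hw₁, hinv₁, hcen₁⟩ := ih _ hcard W rfl (fun a ha b hb => hYc a (hWY ha) b (hWY hb))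
    (fun a ha => hYs a (hWY ha)) (hWY.trans hYK) (by
      rw [eq_bot_iff, ← hYf]; exact inf_le_inf_right _ hWY)
  by_cases hdone : ∀ v ∈ Y, v * k₁ = k₁ * v → v = 1
  · exact ⟨k₁, hk₁, w₁, hWY hw₁, hinv₁, hdone⟩
  push Not at hdone
  obtain ⟨v, hv, hvk, hv1⟩ := hdone
  have hvW : v ∉ W := fun h => hv1 (hcen₁ v h hvk)
  have hvv := hYs v hv
  have hw₁Y := hWY hw₁
  -- an element inverted by `v`
  obtain ⟨x, hx, hxv⟩ : ∃ x ∈ K, v * x ≠ x * v := by
    by_contra hcon
    push Not at hcon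
    apply hv1
    have : v ∈ Y ⊓ centralizer (K : Set G) := by
      refine mem_inf.2 ⟨hv, ?_⟩
      rw [mem_centralizer_iff]
      intro x hx
      exact (hcon x hx).symm
    rwa [hYf, mem_bot] at this
  set a := x⁻¹ * (v * x * v⁻¹) with ha
  have haK : a ∈ K := mul_mem (inv_mem hx) (hnorm v hv x hx)
  have ha1 : a ≠ 1 := by
    intro h
    apply hxv
    have h1 : x = v * x * v⁻¹ := inv_mul_eq_one.1 h
    exact mul_inv_eq_iff_eq_mul.1 h1.symm
  have hvi := hYi v hv
  have hva : v * a * v⁻¹ = a⁻¹ := by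
    have h1 : v * a * v⁻¹ = (v * x * v⁻¹)⁻¹ * ((v * v) * x * (v * v)⁻¹) := by rw [ha]; group
    rw [h1, hvv, ha]; group
  have hconjmul : ∀ y b c : G, y * (b * c) * y⁻¹ = (y * b * y⁻¹) * (y * c * y⁻¹) := fun y b c => by group
  have hconjinv : ∀ y b : G, y * b⁻¹ * y⁻¹ = (y * b * y⁻¹)⁻¹ := fun y b => by group
  have hconjcomm : ∀ y ∈ Y, ∀ z ∈ Y, ∀ b : G, y * (z * b * z⁻¹) * y⁻¹ = z * (y * b * y⁻¹) * z⁻¹ := by
    intro y hy z hz b
    calc y * (z * b * z⁻¹) * y⁻¹ = (y * z) * b * (y * z)⁻¹ := by group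
      _ = (z * y) * b * (z * y)⁻¹ := by rw [hYc y hy z hz]
      _ = z * (y * b * y⁻¹) * z⁻¹ := by group
  have hconjconj : ∀ y ∈ Y, ∀ b : G, y * (y * b * y⁻¹) * y⁻¹ = b := by
    intro y hy b
    calc y * (y * b * y⁻¹) * y⁻¹ = (y * y) * b * (y * y)⁻¹ := by group
      _ = b := by rw [hYs y hy]; group
  clear_value a
  obtain ⟨a', ha'K, ha'1, hva', y, hyY, hyk, hya⟩ : ∃ a' ∈ K, a' ≠ 1 ∧ v * a' * v⁻¹ = a'⁻¹ ∧
      ∃ y ∈ Y, y * k₁ * y⁻¹ = k₁⁻¹ ∧ y * a' * y⁻¹ = a'⁻¹ := by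
    by_cases hb : a * (w₁ * a * w₁⁻¹) = 1
    · refine ⟨a, haK, ha1, hva, w₁, hw₁Y, hinv₁, ?_⟩
      exact (inv_eq_of_mul_eq_one_right hb).symm
    · have hwaK := hnorm w₁ hw₁Y a haK
      refine ⟨a * (w₁ * a * w₁⁻¹), mul_mem haK hwaK, hb, ?_, w₁ * v, mul_mem hw₁Y hv, ?_, ?_⟩
      · rw [hconjmul, hva, hconjcomm v hv w₁ hw₁Y, hva, hconjinv, hK _ (inv_mem haK) _ (inv_mem hwaK)]
        exact (mul_inv_rev _ _).symm
      · have h1 : v * k₁ * v⁻¹ = k₁ := by rw [hvk, mul_inv_cancel_right]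
        calc w₁ * v * k₁ * (w₁ * v)⁻¹ = w₁ * (v * k₁ * v⁻¹) * w₁⁻¹ := by group
          _ = k₁⁻¹ := by rw [h1, hinv₁]
      · have h1 : w₁ * v * (a * (w₁ * a * w₁⁻¹)) * (w₁ * v)⁻¹ =
            w₁ * (v * (a * (w₁ * a * w₁⁻¹)) * v⁻¹) * w₁⁻¹ := by group
        rw [h1, hconjmul v, hva, hconjcomm v hv w₁ hw₁Y, hva, hconjmul w₁, hconjconj w₁ hw₁Y, hconjinv]
        exact (mul_inv_rev _ _).symm
  have hvk₁ : v * k₁ * v⁻¹ = k₁ := by rw [hvk, mul_inv_cancel_right]
  refine ⟨k₁ * a', mul_mem hk₁ ha'K, y, hyY, ?_, ?_⟩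
  · rw [hconjmul, hyk, hya, mul_inv_rev]
    exact hK _ (inv_mem hk₁) _ (inv_mem ha'K)
  · intro c hc hck
    have h1 : (c * k₁ * c⁻¹) * (c * a' * c⁻¹) = k₁ * a' := by
      rw [← hconjmul, hck, mul_inv_cancel_right]
    have hz : k₁⁻¹ * (c * k₁ * c⁻¹) = a' * (c * a' * c⁻¹)⁻¹ := by
      rw [eq_mul_inv_iff_mul_eq, mul_assoc, h1, inv_mul_cancel_left]
    set z := k₁⁻¹ * (c * k₁ * c⁻¹) with hzdef
    have hzK : z ∈ K := mul_mem (inv_mem hk₁) (hnorm c hc k₁ hk₁)
    have h2 : v * z * v⁻¹ = z := by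
      rw [hzdef, hconjmul, hconjinv, hvk₁, hconjcomm v hv c hc, hvk₁]
    have h3 : v * z * v⁻¹ = z⁻¹ := by
      rw [hz, hconjmul, hva', hconjinv, hconjcomm v hv c hc, hva', hconjinv, inv_inv, mul_inv_rev, inv_inv]
      exact hK _ (inv_mem ha'K) _ (hnorm c hc a' ha'K)
    have hz1 : z = 1 := eq_one_of_sq hodd hzK (h2.symm.trans h3)
    have hck₁ : c * k₁ = k₁ * c := by
      rw [hzdef] at hz1
      exact mul_inv_eq_iff_eq_mul.1 (inv_mul_eq_one.1 hz1).symm
    have hca' : c * a' * c⁻¹ = a' := by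
      rw [hz1] at hz
      exact (mul_inv_eq_one.1 hz.symm).symm
    by_cases hcW : c ∈ W
    · exact hcen₁ c hcW hck₁
    · exfalso
      have h4 := hW2 c hc hcW v hv hvW
      have h5 : c * v * k₁ = k₁ * (c * v) := by
        rw [mul_assoc, hvk, ← mul_assoc, hck₁, mul_assoc]
      have h6 := hcen₁ _ h4 h5
      have h7 : c = v := by
        rw [← hvi]; exact eq_inv_of_mul_eq_one_left h6
      rw [h7, hva'] at hca'
      exact ha'1 (eq_one_of_sq hodd ha'K hca'.symm)

end abelian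

section setup

variable {G : Type u} [Group G]

/-- the minimality hypothesis -/
def MinG (G : Type u) [Group G] : Prop :=
  ∀ (H : Type u) [Group H] [Finite H] (W : Subgroup H), Nat.card H < Nat.card G →
    IsElementaryAbelian 2 W → W ≠ ⊥ → IsSidkiPair W → W ⊓ pCore 2 H ≠ ⊥

theorem mem_of_sq_mem {K : Subgroup G} {h : G} (ho : Odd (orderOf h)) (h2 : h * h ∈ K) : h ∈ K := by
  obtain ⟨m, hm⟩ := ho
  have h1 : (h * h) ^ (m + 1) = h := by
    rw [← pow_two, ← pow_mul, show 2 * (m + 1) = orderOf h + 1 by omega, pow_succ, pow_orderOf_eq_one,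
      one_mul]
  rw [← h1]; exact pow_mem h2 _

theorem ea_comm {V : Subgroup G} (hV : IsElementaryAbelian 2 V) : ∀ a ∈ V, ∀ b ∈ V, a * b = b * a :=
  fun a ha b hb => congrArg Subtype.val (hV.1.is_comm.comm ⟨a, ha⟩ ⟨b, hb⟩)

theorem ea_sq {V : Subgroup G} (hV : IsElementaryAbelian 2 V) : ∀ a ∈ V, a * a = 1 :=
  fun a ha => by rw [← pow_two]; exact hV.2 a ha

theorem ea_mk {V : Subgroup G} (h1 : ∀ a ∈ V, ∀ b ∈ V, a * b = b * a) (h2 : ∀ a ∈ V, a * a = 1) :
    IsElementaryAbelian 2 V :=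
  ⟨⟨⟨fun a b => Subtype.ext (h1 a a.2 b b.2)⟩⟩, fun a ha => by rw [pow_two]; exact h2 a ha⟩

theorem ea_of_le {V W : Subgroup G} (hV : IsElementaryAbelian 2 V) (h : W ≤ V) : IsElementaryAbelian 2 W :=
  ea_mk (fun a ha b hb => ea_comm hV a (h ha) b (h hb)) fun a ha => ea_sq hV a (h ha)

variable [Finite G]

theorem L1 (hminG : MinG G) {H Y : Subgroup G} (hH : H ≠ ⊤) (hY : IsElementaryAbelian 2 Y) (hY1 : Y ≠ ⊥)
    (hYH : Y ≤ H) (hO : Y ⊓ (pCore 2 ↥H).map H.subtype = ⊥) :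
    ∃ h ∈ H, ∃ v ∈ Y, Odd (orderOf h) ∧ v * h * v⁻¹ = h⁻¹ ∧ ∀ w ∈ Y, w * h = h * w → w = 1 := by
  by_contra hcon
  push Not at hcon
  have h1 := hminG ↥H (Y.subgroupOf H) (card_lt_of_lt_top (lt_top_iff_ne_top.2 hH))
    (ea_mk (fun a ha b hb => Subtype.ext (ea_comm hY a ha b hb)) fun a ha => Subtype.ext (ea_sq hY a ha))
    (by
      intro h
      rw [subgroupOf_eq_bot, disjoint_iff, inf_eq_left.2 hYH] at h
      exact hY1 h)
    (by
      intro h v hv ho hi
      obtain ⟨w, hw, hwh, hw1⟩ := hcon h h.2 v hv (by rwa [Subgroup.orderOf_coe]) (congrArg Subtype.val hi)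
      exact ⟨⟨w, hYH hw⟩, hw, fun h' => hw1 (congrArg Subtype.val h'), Subtype.ext hwh⟩)
  apply h1
  rw [eq_bot_iff]
  intro x hx
  obtain ⟨hx1, hx2⟩ := mem_inf.1 hx
  have h2 : (x : G) ∈ Y ⊓ (pCore 2 ↥H).map H.subtype := mem_inf.2 ⟨hx1, mem_map_of_mem H.subtype hx2⟩
  rw [hO, mem_bot] at h2
  exact mem_bot.2 (Subtype.ext h2)

omit [Finite G] in
/-- an odd order element of `K ⊔ Y` lies in `K` -/
theorem mem_of_mem_sup {K Y : Subgroup G} (hY : IsElementaryAbelian 2 Y) (hYK : Y ≤ normalizer (K : Set G))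
    {h : G} (hh : h ∈ K ⊔ Y) (ho : Odd (orderOf h)) : h ∈ K := by
  rw [SubgroupTools.mem_sup_of_le_normalizer hYK] at hh
  obtain ⟨k, hk, y, hy, rfl⟩ := hh
  apply mem_of_sq_mem ho
  have h1 : k * y * (k * y) = k * (y * k * y⁻¹) * (y * y) := by group
  rw [h1, ea_sq hY y hy, mul_one]
  exact mul_mem hk ((mem_normalizer_iff.1 (hYK hy) k).1 hk)

theorem L2 (hminG : MinG G) {K Y : Subgroup G} (hK : pCore 2 ↥K = ⊥) (hY : IsElementaryAbelian 2 Y)
    (hY1 : Y ≠ ⊥) (hYK : Y ≤ normalizer (K : Set G)) (hKY : K ⊔ Y ≠ ⊤) (hYC : Y ⊓ centralizer (K : Set G) = ⊥) :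
    ∃ h ∈ K, ∃ v ∈ Y, Odd (orderOf h) ∧ v * h * v⁻¹ = h⁻¹ ∧ ∀ w ∈ Y, w * h = h * w → w = 1 := by
  set H := K ⊔ Y with hHdef
  have hHK : H ≤ normalizer (K : Set G) := sup_le le_normalizer hYK
  have hKH : K ≤ H := le_sup_left
  set R := (pCore 2 ↥H).map H.subtype with hR
  have hRH : R ≤ H := map_subtype_le _
  have hHR : H ≤ normalizer (R : Set G) := Cores.le_normalizer_map_subtype _
  have hRp : IsPGroup 2 R := (Cores.isPGroup_pCore 2 ↥H).map _
  have hRK : K ⊓ R = ⊥ := by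
    have h1 : ((K ⊓ R).subgroupOf K).Normal := by
      refine normal_subgroupOf_iff_le_normalizer inf_le_left |>.2 ?_
      exact le_trans (le_inf (le_normalizer) (hKH.trans hHR)) (inf_normalizer_le_normalizer_inf)
    have h2 : IsPGroup 2 ((K ⊓ R).subgroupOf K) := (hRp.to_le inf_le_right).comap_subtype
    have h3 := Cores.le_pCore h1 h2
    rw [hK, le_bot_iff, subgroupOf_eq_bot, disjoint_iff, inf_eq_left.2 inf_le_left] at h3
    exact h3
  have hRC : R ≤ centralizer (K : Set G) := by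
    rw [le_centralizer_iff_commutator, eq_bot_iff, ← hRK, commutator_le]
    intro r hr k hk
    rw [commutatorElement_def]
    refine mem_inf.2 ⟨mul_mem ((mem_normalizer_iff.1 (hHK (hRH hr)) k).1 hk) (inv_mem hk), ?_⟩
    have h1 : k * r⁻¹ * k⁻¹ ∈ R := (mem_normalizer_iff.1 (hHR (hKH hk)) _).1 (inv_mem hr)
    have h2 : r * k * r⁻¹ * k⁻¹ = r * (k * r⁻¹ * k⁻¹) := by group
    rw [h2]; exact mul_mem hr h1
  obtain ⟨h, hh, v, hv, ho, hi, hc⟩ := L1 hminG hKY hY hY1 le_sup_right (by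
    rw [eq_bot_iff, ← hYC]; exact inf_le_inf_left _ hRC)
  exact ⟨h, mem_of_mem_sup hY hYK hh ho, v, hv, ho, hi, hc⟩

omit [Finite G] in
theorem ea_map {G' : Type*} [Group G'] {V : Subgroup G} (hV : IsElementaryAbelian 2 V) (f : G →* G') :
    IsElementaryAbelian 2 (V.map f) := by
  apply ea_mk
  · rintro _ ⟨a, ha, rfl⟩ _ ⟨b, hb, rfl⟩
    rw [← map_mul, ← map_mul, ea_comm hV a ha b hb]
  · rintro _ ⟨a, ha, rfl⟩
    rw [← map_mul, ea_sq hV a ha, map_one]

omit [Finite G] in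
theorem ea_pgroup {V : Subgroup G} (hV : IsElementaryAbelian 2 V) : IsPGroup 2 V := by
  intro x
  refine ⟨1, ?_⟩
  rw [pow_one, pow_two]
  exact Subtype.ext (ea_sq hV x x.2)

/-- the hypotheses, without the minimality of `V` -/
structure Hyp (V : Subgroup G) : Prop where
  ea : IsElementaryAbelian 2 V
  ne : V ≠ ⊥
  sp : IsSidkiPair V
  inf : V ⊓ pCore 2 G = ⊥
  minG : MinG G
  minV : ∀ W : Subgroup G, Nat.card W < Nat.card V → IsElementaryAbelian 2 W → W ≠ ⊥ → IsSidkiPair W →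
    W ⊓ pCore 2 G ≠ ⊥

/-- the hypothesis applied to a quotient -/
theorem Hyp.quot {V : Subgroup G} (h : Hyp V) (K : Subgroup G) [K.Normal] (hK : K ≠ ⊥) (hVK : V ⊓ K = ⊥) :
    ∃ v ∈ V, v ≠ 1 ∧ QuotientGroup.mk' K v ∈ pCore 2 (G ⧸ K) := by
  have h1 := S3012.result V K h.ea h.ne h.sp hVK
  have hcard : Nat.card (G ⧸ K) < Nat.card G := by
    rw [← Subgroup.index_eq_card, ← Subgroup.index_mul_card K]
    have h2 : 1 < Nat.card K := by
      haveI := (nontrivial_iff_ne_bot K).2 hK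
      exact Finite.one_lt_card
    have h3 : 0 < K.index := Nat.pos_of_ne_zero K.index_ne_zero_of_finite
    nlinarith
  have hne : V.map (QuotientGroup.mk' K) ≠ ⊥ := by
    intro h4
    rw [Subgroup.map_eq_bot_iff, QuotientGroup.ker_mk'] at h4
    apply h.ne
    rw [← hVK, inf_eq_left.2 h4]
  have h5 := h.minG (G ⧸ K) _ hcard (ea_map h.ea _) hne h1
  by_contra hcon
  push Not at hcon
  apply h5
  rw [eq_bot_iff]
  intro x hx
  obtain ⟨⟨v, hv, rfl⟩, hx2⟩ := mem_inf.1 hx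
  by_cases hv1 : v = 1
  · rw [hv1, map_one]; exact one_mem _
  · exact absurd hx2 (hcon v hv hv1)

theorem Hyp.core {V : Subgroup G} (h : Hyp V) : pCore 2 G = ⊥ := by
  by_contra hne
  obtain ⟨v, hv, hv1, hv2⟩ := h.quot (pCore 2 G) hne h.inf
  rw [Cores.pCore_quotient_pCore, mem_bot, QuotientGroup.mk'_apply, QuotientGroup.eq_one_iff] at hv2
  apply hv1
  rw [← mem_bot, ← h.inf]
  exact mem_inf.2 ⟨hv, hv2⟩

/-- a subnormal `2`-subgroup is trivial -/
theorem Hyp.subnormal {V : Subgroup G} (h : Hyp V) {H : Subgroup G} (hH : H.IsSubnormal) (h2 : IsPGroup 2 H) :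
    H = ⊥ := by
  rw [eq_bot_iff, ← h.core]; exact Layer.subnormal_pgroup_le_pCore hH h2

theorem Hyp.core_subnormal {V : Subgroup G} (h : Hyp V) {H : Subgroup G} (hH : H.IsSubnormal) :
    pCore 2 ↥H = ⊥ := by
  have h1 := Layer.map_pCore_le_of_subnormal 2 hH
  rw [h.core, le_bot_iff, Subgroup.map_eq_bot_iff, ker_subtype, le_bot_iff] at h1
  exact h1

theorem Hyp.not_le {V : Subgroup G} (h : Hyp V) (K : Subgroup G) [hKn : K.Normal] (hK : K ≠ ⊥) :
    ¬ V ≤ centralizer (K : Set G) := by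
  intro hle
  by_cases hC : centralizer (K : Set G) = ⊤
  · -- `K` is central
    have hKc : K ≤ center G := by
      intro k hk
      rw [mem_center_iff]
      intro g
      have : g ∈ centralizer (K : Set G) := hC ▸ mem_top g
      exact (mem_centralizer_iff.1 this k hk).symm
    have hVK : V ⊓ K = ⊥ := by
      apply h.subnormal
      · apply Subgroup.Normal.isSubnormal
        constructor
        intro n hn g
        have := mem_center_iff.1 (hKc (mem_inf.1 hn).2) g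
        rw [this, mul_inv_cancel_right]; exact hn
      · exact (ea_pgroup h.ea).to_le inf_le_left
    obtain ⟨v, hv, hv1, hv2⟩ := h.quot K hK hVK
    set M := (pCore 2 (G ⧸ K)).comap (QuotientGroup.mk' K) with hM
    have hMn : Group.IsNilpotent ↥M := by
      let f : ↥M →* ↥(pCore 2 (G ⧸ K)) := (QuotientGroup.mk' K).subgroupComap _
      haveI : Group.IsNilpotent ↥(pCore 2 (G ⧸ K)) := (Cores.isPGroup_pCore 2 (G ⧸ K)).isNilpotent
      refine Subgroup.isNilpotent_of_ker_le_center f ?_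
      intro x hx
      have h1 : QuotientGroup.mk' K (x : G) = 1 := congrArg Subtype.val hx
      rw [QuotientGroup.mk'_apply, QuotientGroup.eq_one_iff] at h1
      rw [mem_center_iff]
      intro g
      exact Subtype.ext (mem_center_iff.1 (hKc h1) g)
    have hvM : v ∈ M := hv2
    have h1 : (zpowers v).IsSubnormal := by
      have h2 : ((zpowers v).subgroupOf M).IsSubnormal := SubnormalizerP.isSubnormal_of_isNilpotent hMn _
      have h3 : M.IsSubnormal := Subgroup.Normal.isSubnormal inferInstance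
      exact h2.trans (zpowers_le.2 hvM) h3
    have h2 := h.subnormal h1 ((ea_pgroup h.ea).to_le (zpowers_le.2 hv))
    exact hv1 (zpowers_eq_bot.1 h2)
  · have hCn : (centralizer (K : Set G)).Normal := inferInstance
    have h1 := h.core_subnormal (H := centralizer (K : Set G)) hCn.isSubnormal
    obtain ⟨x, hx, v, hv, ho, hi, hc⟩ := L1 h.minG hC h.ea h.ne hle (by
      rw [h1, Subgroup.map_bot, inf_bot_eq])
    obtain ⟨w, hw, hw1, hwx⟩ := h.sp x v hv ho hi
    exact hw1 (hc w hw hwx)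

theorem Hyp.III {V : Subgroup G} (h : Hyp V) (K : Subgroup G) [hKn : K.Normal]
    (hα : ∀ z ∈ K, z ∈ centralizer (K : Set G) → z = z⁻¹ → z = 1)
    (hβ : ∀ Y ≤ V, Y ≠ ⊥ → Y ⊓ centralizer (K : Set G) = ⊥ →
      (∃ x ∈ centralizer (K : Set G), x ≠ 1 ∧ Odd (orderOf x)) →
      ∃ k ∈ K, ∃ y ∈ Y, Odd (orderOf k) ∧ y * k * y⁻¹ = k⁻¹ ∧ ∀ w ∈ Y, w * k = k * w → w = 1)
    (hV : ¬ V ≤ centralizer (K : Set G)) : V ⊓ centralizer (K : Set G) = ⊥ := by
  by_contra hne
  set C := centralizer (K : Set G) with hC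
  haveI hCn : C.Normal := by rw [hC]; infer_instance
  have hcard : Nat.card (V ⊓ C : Subgroup G) < Nat.card V :=
    card_lt_of_lt (lt_of_le_of_ne inf_le_left fun h' => hV (inf_eq_left.1 h'))
  have hns : ¬ IsSidkiPair (V ⊓ C) := by
    intro hs
    apply h.minV (V ⊓ C) hcard (ea_of_le h.ea inf_le_left) hne hs
    rw [h.core, inf_bot_eq]
  unfold IsSidkiPair at hns
  push Not at hns
  obtain ⟨x, v, hv, ho, hi, hc⟩ := hns
  obtain ⟨hvV, hvC⟩ := mem_inf.1 hv
  have hxC : x ∈ C := by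
    apply mem_of_sq_mem ho
    have h1 : v * (x * v⁻¹ * x⁻¹) ∈ C := mul_mem hvC (hCn.conj_mem _ (inv_mem hvC) x)
    have h2 : v * (x * v⁻¹ * x⁻¹) = (v * x * v⁻¹) * x⁻¹ := by group
    rw [h2, hi, ← mul_inv_rev] at h1
    exact inv_mem_iff.1 h1
  have hx1 : x ≠ 1 := by
    rintro rfl
    apply hne
    rw [eq_bot_iff]
    intro w hw
    by_contra hw1
    exact hc w hw (fun h' => hw1 (mem_bot.2 h')) (by simp)
  obtain ⟨Y, hY⟩ : ∃ Y : Subgroup G, Y = V ⊓ centralizer ({x} : Set G) := ⟨_, rfl⟩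
  have hmemY : ∀ w, w ∈ Y ↔ w ∈ V ∧ w * x = x * w := by
    intro w
    rw [hY, mem_inf, mem_centralizer_singleton_iff]
  have hYV : Y ≤ V := fun y hy => ((hmemY y).1 hy).1
  have hYx : ∀ y ∈ Y, y * x = x * y := fun y hy => ((hmemY y).1 hy).2
  have hYne : Y ≠ ⊥ := by
    obtain ⟨w, hw, hw1, hwx⟩ := h.sp x v hvV ho hi
    intro h'
    apply hw1
    rw [← mem_bot, ← h']
    exact (hmemY w).2 ⟨hw, hwx⟩
  have hYC : Y ⊓ C = ⊥ := by
    rw [eq_bot_iff]
    intro w hw
    obtain ⟨h1, h2⟩ := mem_inf.1 hw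
    by_contra hw1
    exact hc w (mem_inf.2 ⟨hYV h1, h2⟩) (fun h' => hw1 (mem_bot.2 h')) (hYx w h1)
  obtain ⟨k, hk, y, hy, hok, hyk, hck⟩ := hβ Y hYV hYne hYC ⟨x, hxC, hx1, ho⟩
  have hcomm : ∀ c ∈ C, ∀ k ∈ K, c * k = k * c := fun c hc k hk => (mem_centralizer_iff.1 hc k hk).symm
  have hxk : Commute x k := hcomm x hxC k hk
  have hodd : Odd (orderOf (x * k)) := (ho.mul hok).of_dvd_nat hxk.orderOf_mul_dvd_mul_orderOf
  have hinv : (v * y) * (x * k) * (v * y)⁻¹ = (x * k)⁻¹ := by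
    have h1 : (v * y) * (x * k) * (v * y)⁻¹ = (v * (y * x * y⁻¹) * v⁻¹) * (v * (y * k * y⁻¹) * v⁻¹) := by
      group
    rw [h1, hyk, hYx y hy, mul_inv_cancel_right, hi, hcomm v hvC _ (inv_mem hk), mul_inv_cancel_right,
      mul_inv_rev]
    exact (hcomm _ (inv_mem hxC) _ (inv_mem hk))
  obtain ⟨w, hw, hw1, hwxk⟩ := h.sp (x * k) (v * y) (mul_mem hvV (hYV hy)) hodd hinv
  obtain ⟨z, hz⟩ : ∃ z, z = x⁻¹ * (w * x * w⁻¹) := ⟨_, rfl⟩
  have hz2 : z = k * (w * k * w⁻¹)⁻¹ := by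
    have h1 : (w * x * w⁻¹) * (w * k * w⁻¹) = x * k := by
      calc (w * x * w⁻¹) * (w * k * w⁻¹) = (w * (x * k)) * w⁻¹ := by group
        _ = x * k := by rw [hwxk, mul_inv_cancel_right]
    rw [hz, inv_mul_eq_iff_eq_mul, ← mul_assoc, ← h1, mul_inv_cancel_right]
  have hzC : z ∈ C := by rw [hz]; exact mul_mem (inv_mem hxC) (hCn.conj_mem _ hxC w)
  have hzK : z ∈ K := by rw [hz2]; exact mul_mem hk (inv_mem (hKn.conj_mem _ hk w))
  have hvz : v * z * v⁻¹ = z := by rw [hcomm v hvC z hzK, mul_inv_cancel_right]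
  have hwx : w * x * w⁻¹ = x * z := by rw [hz, mul_inv_cancel_left]
  have hvz2 : v * z * v⁻¹ = z⁻¹ := by
    have hvw := ea_comm h.ea v hvV w hw
    have h1 : v * z * v⁻¹ = (v * x * v⁻¹)⁻¹ * ((v * w) * x * (v * w)⁻¹) := by rw [hz]; group
    have h2 : (v * w) * x * (v * w)⁻¹ = w * (v * x * v⁻¹) * w⁻¹ := by rw [hvw]; group
    have h3 : w * x⁻¹ * w⁻¹ = (w * x * w⁻¹)⁻¹ := by group
    rw [h1, h2, hi, inv_inv, h3, hwx, mul_inv_rev, ← mul_assoc, hcomm x hxC _ (inv_mem hzK),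
      mul_inv_cancel_right]
  have hz1 := hα z hzK hzC (hvz.symm.trans hvz2)
  have hwx' : w * x = x * w := by
    rw [hz1, mul_one] at hwx
    exact mul_inv_eq_iff_eq_mul.1 hwx
  have hwk : w * k = k * w := by
    rw [hz1] at hz2
    exact (mul_inv_eq_iff_eq_mul.1 (mul_inv_eq_one.1 hz2.symm).symm)
  exact hw1 (hck w ((hmemY w).2 ⟨hw, hwx'⟩) hwk)

theorem Hyp.abelian {V : Subgroup G} (h : Hyp V) (K : Subgroup G) [hKn : K.Normal]
    (hK : ∀ a ∈ K, ∀ b ∈ K, a * b = b * a) : K = ⊥ := by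
  by_contra hne
  have hodd : Odd (Nat.card K) := by
    rw [← Nat.not_even_iff_odd, even_iff_two_dvd]
    intro hd
    obtain ⟨x, hx⟩ := exists_prime_orderOf_dvd_card' 2 hd
    have h1 : (zpowers (x : G)).IsSubnormal := by
      have h2 : ((zpowers (x : G)).subgroupOf K).Normal := ⟨fun n hn g => by
          have : g * n * g⁻¹ = n := Subtype.ext (by
            show (g : G) * n * (g : G)⁻¹ = n
            rw [hK g g.2 n n.2, mul_inv_cancel_right])
          rwa [this]⟩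
      exact h2.isSubnormal.trans (zpowers_le.2 x.2) hKn.isSubnormal
    have h3 := h.subnormal h1 (IsPGroup.of_card (n := 1) (by
      rw [Nat.card_zpowers, Subgroup.orderOf_coe, hx, pow_one]))
    rw [zpowers_eq_bot] at h3
    rw [← Subgroup.orderOf_coe, h3, orderOf_one] at hx
    omega
  have hVC := h.not_le K hne
  have hβ : ∀ Y ≤ V, Y ⊓ centralizer (K : Set G) = ⊥ →
      ∃ k ∈ K, ∃ y ∈ Y, Odd (orderOf k) ∧ y * k * y⁻¹ = k⁻¹ ∧ ∀ w ∈ Y, w * k = k * w → w = 1 := by
    intro Y hY hYC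
    obtain ⟨k, hk, y, hy, hi, hc⟩ := abelian_case K hK hodd _ Y rfl (ea_comm (ea_of_le h.ea hY))
      (ea_sq (ea_of_le h.ea hY)) (by rw [normalizer_eq_top]; exact le_top) hYC
    exact ⟨k, hk, y, hy, hodd.of_dvd_nat (Subgroup.orderOf_dvd_natCard _ hk), hi, hc⟩
  have hV0 := h.III K (fun z hz _ hzz => eq_one_of_sq hodd hz hzz) (fun Y hY _ hYC _ => hβ Y hY hYC) hVC
  obtain ⟨k, hk, y, hy, ho, hi, hc⟩ := hβ V le_rfl hV0
  obtain ⟨w, hw, hw1, hwk⟩ := h.sp k y hy ho hi
  exact hw1 (hc w hw hwk)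

theorem Hyp.cent {V : Subgroup G} (h : Hyp V) (K : Subgroup G) [hKn : K.Normal] :
    K ⊓ centralizer (K : Set G) = ⊥ := by
  apply h.abelian
  intro a ha b hb
  exact (mem_centralizer_iff.1 (mem_inf.1 hb).2 a (mem_inf.1 ha).1)

theorem Hyp.inf_cent {V : Subgroup G} (h : Hyp V) (K : Subgroup G) [hKn : K.Normal] (hK : K ≠ ⊥) :
    V ⊓ centralizer (K : Set G) = ⊥ := by
  refine h.III K ?_ ?_ (h.not_le K hK)
  · intro z hz hzC _
    rw [← mem_bot, ← h.cent K]; exact mem_inf.2 ⟨hz, hzC⟩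
  · rintro Y hY hY1 hYC ⟨x, hxC, hx1, hxo⟩
    refine L2 h.minG (h.core_subnormal hKn.isSubnormal) (ea_of_le h.ea hY) hY1
      (by rw [normalizer_eq_top]; exact le_top) ?_ hYC
    intro htop
    apply hx1
    have h1 : x ∈ K := mem_of_mem_sup (ea_of_le h.ea hY) (by rw [normalizer_eq_top]; exact le_top)
      (htop ▸ mem_top x) hxo
    rw [← mem_bot, ← h.cent K]; exact mem_inf.2 ⟨h1, hxC⟩

theorem Hyp.sup_top {V : Subgroup G} (h : Hyp V) (K : Subgroup G) [hKn : K.Normal] (hK : K ≠ ⊥) :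
    V ⊔ K = ⊤ := by
  by_contra hne
  rw [sup_comm] at hne
  obtain ⟨k, hk, y, hy, ho, hi, hc⟩ := L2 h.minG (h.core_subnormal hKn.isSubnormal) h.ea h.ne
    (by rw [normalizer_eq_top]; exact le_top) hne (h.inf_cent K hK)
  obtain ⟨w, hw, hw1, hwk⟩ := h.sp k y hy ho hi
  exact hw1 (hc w hw hwk)

theorem Hyp.fitting {V : Subgroup G} (h : Hyp V) : fittingSubgroup G = ⊥ := by
  haveI : Group.IsNilpotent ↥(fittingSubgroup G) := Layer.isNilpotent_fittingSubgroup G
  haveI : (fittingSubgroup G).Characteristic := Layer.fittingSubgroup_characteristic G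
  have h1 : (center ↥(fittingSubgroup G)).map (fittingSubgroup G).subtype = ⊥ := by
    haveI : ((center ↥(fittingSubgroup G)).map (fittingSubgroup G).subtype).Normal :=
      Cores.normal_map_subtype_of_characteristic _
    apply h.abelian
    rintro _ ⟨a, ha, rfl⟩ _ ⟨b, hb, rfl⟩
    exact congrArg Subtype.val ((mem_center_iff.1 hb) a)
  by_contra hne
  haveI := (nontrivial_iff_ne_bot _).2 hne
  rw [Subgroup.map_eq_bot_iff, ker_subtype, le_bot_iff] at h1
  exact Group.IsNilpotent.center_ne_bot _ h1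

omit [Finite G] in
theorem le_normalizer_of {A K : Subgroup G} (h : ∀ a ∈ A, K ≤ K.comap (MulAut.conj a).toMonoidHom) :
    A ≤ normalizer (K : Set G) := by
  intro a ha
  rw [mem_normalizer_iff]
  intro k
  constructor
  · intro hk; exact h a ha hk
  · intro hk
    have h1 := h a⁻¹ (inv_mem ha) hk
    rw [mem_comap] at h1
    have h2 : (MulAut.conj a⁻¹).toMonoidHom (a * k * a⁻¹) = k := by
      show a⁻¹ * (a * k * a⁻¹) * a⁻¹⁻¹ = k
      group
    rwa [h2] at h1

theorem Hyp.main {V : Subgroup G} (h : Hyp V) :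
    IsSimpleGroup ↥(generalizedFittingSubgroup G) ∧ ¬ IsMulCommutative ↥(generalizedFittingSubgroup G) ∧
      V ⊔ generalizedFittingSubgroup G = ⊤ := by
  haveI : (generalizedFittingSubgroup G).Characteristic := Layer.generalizedFittingSubgroup_characteristic G
  have hFE : generalizedFittingSubgroup G = layer G := by
    unfold generalizedFittingSubgroup
    rw [h.fitting, sup_bot_eq]
  have hFne : generalizedFittingSubgroup G ≠ ⊥ := by
    intro h0
    have h1 := Layer.centralizer_genFitting_le (G := G)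
    rw [h0] at h1
    apply h.ne
    rw [eq_bot_iff]
    refine le_trans ?_ h1
    intro x _
    rw [mem_centralizer_iff]
    intro y hy
    rw [mem_bot.1 hy]; simp
  have htop := h.sup_top _ hFne
  obtain ⟨L, hL⟩ : ∃ L : Subgroup G, IsComponent L := by
    by_contra hno
    push Not at hno
    apply hFne
    rw [hFE]
    unfold layer
    rw [eq_bot_iff]
    exact sSup_le fun K hK => absurd hK (hno K)
  have hcenL : ∀ L : Subgroup G, IsComponent L → L ⊓ centralizer (L : Set G) = ⊥ := by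
    intro L hL
    have h1 : (L ⊓ centralizer (L : Set G)).IsSubnormal := by
      have h2 : (L ⊓ centralizer (L : Set G)) = (center ↥L).map L.subtype := by
        ext y
        constructor
        · intro hy
          obtain ⟨h3, h4⟩ := mem_inf.1 hy
          refine ⟨⟨y, h3⟩, ?_, rfl⟩
          rw [SetLike.mem_coe, mem_center_iff]
          intro g
          apply Subtype.ext
          exact (mem_centralizer_iff.1 h4) g g.2
        · rintro ⟨y, hy, rfl⟩
          refine mem_inf.2 ⟨y.2, ?_⟩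
          rw [mem_centralizer_iff]
          intro g hg
          exact congrArg Subtype.val ((mem_center_iff.1 hy) ⟨g, hg⟩)
      rw [h2]
      exact Layer.isSubnormal_of_characteristic hL.1 inferInstance
    have h2 := Layer.subnormal_nilpotent_le_fitting h1 (Layer.isNilpotent_of_le_centralizer (by
      refine inf_le_right.trans ?_
      exact centralizer_le (inf_le_left (a := L))))
    rw [h.fitting, le_bot_iff] at h2
    exact h2
  -- the conjugates of `L` under `V`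
  let Lc : G → Subgroup G := fun v => L.map (MulAut.conj v).toMonoidHom
  have hLc : ∀ v, IsComponent (Lc v) := fun v => isComponent_conj v hL
  have hLcm : ∀ v, ∀ a ∈ L, v * a * v⁻¹ ∈ Lc v := fun v a ha => ⟨a, ha, rfl⟩
  let S : Set (Subgroup G) := {M | ∃ v ∈ V, M = Lc v}
  have hSc : ∀ M ∈ S, IsComponent M := by
    rintro M ⟨v, _, rfl⟩; exact hLc v
  have hLS : L ∈ S := by
    refine ⟨1, one_mem _, ?_⟩
    show L = L.map (MulAut.conj 1).toMonoidHom
    rw [map_one]
    exact (map_id L).symm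
  have hKV : V ≤ normalizer ((sSup S : Subgroup G) : Set G) := by
    apply le_normalizer_of
    intro v hv
    apply sSup_le
    rintro M ⟨w, hw, rfl⟩
    rw [← map_le_iff_le_comap]
    have h1 : (Lc w).map (MulAut.conj v).toMonoidHom = Lc (v * w) := by
      show (L.map _).map _ = L.map _
      rw [map_map]
      congr 1
      ext x
      simp [mul_assoc]
    rw [h1]
    exact le_sSup ⟨v * w, mul_mem hv hw, rfl⟩
  have hKF : generalizedFittingSubgroup G ≤ normalizer ((sSup S : Subgroup G) : Set G) := by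
    apply le_normalizer_of
    intro f hf
    apply sSup_le
    intro M hM
    have h1 := Layer.layer_le_normalizer_component (hSc M hM)
    rw [← hFE] at h1
    intro x hx
    exact le_sSup hM ((mem_normalizer_iff.1 (h1 hf) x).1 hx)
  haveI hKn : (sSup S : Subgroup G).Normal := by
    rw [← normalizer_eq_top_iff, eq_top_iff, ← htop]
    exact sup_le hKV hKF
  have hKne : (sSup S : Subgroup G) ≠ ⊥ := by
    intro h0
    apply component_ne_bot hL
    rw [eq_bot_iff, ← h0]; exact le_sSup hLS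
  have hKtop := h.sup_top _ hKne
  -- every component is in `S`
  have hall : ∀ M, IsComponent M → M ∈ S := by
    intro M hM
    apply Layer.component_mem_of_le_sSup hSc hM
    rw [← component_perfect hM, commutator_le]
    intro a _ b _
    rw [commutatorElement_def]
    have hd : ∀ g : G, ∃ v ∈ V, ∃ k ∈ (sSup S : Subgroup G), g = v * k := by
      intro g
      have h1 : g ∈ V ⊔ sSup S := hKtop ▸ mem_top g
      rw [mem_sup_of_normal_right] at h1
      obtain ⟨v, hv, k, hk, hg⟩ := h1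
      exact ⟨v, hv, k, hk, hg.symm⟩
    obtain ⟨v, hv, k, hk, rfl⟩ := hd a
    obtain ⟨w, hw, l, hl, rfl⟩ := hd b
    rw [← QuotientGroup.eq_one_iff]
    have hk1 : ((k : G) : G ⧸ sSup S) = 1 := (QuotientGroup.eq_one_iff k).2 hk
    have hl1 : ((l : G) : G ⧸ sSup S) = 1 := (QuotientGroup.eq_one_iff l).2 hl
    have hvw : ((v : G) : G ⧸ sSup S) * (w : G ⧸ sSup S) = (w : G ⧸ sSup S) * (v : G ⧸ sSup S) := by
      rw [← QuotientGroup.mk_mul, ← QuotientGroup.mk_mul, ea_comm h.ea v hv w hw]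
    simp only [QuotientGroup.mk_mul, QuotientGroup.mk_inv, hk1, hl1, mul_one]
    rw [hvw]; group
  -- `L` is the only component
  have hfix : ∀ v ∈ V, v ∈ normalizer (L : Set G) := by
    by_contra hcon
    push Not at hcon
    obtain ⟨v, hv, hvL⟩ := hcon
    have hne : ∀ w, w ∉ normalizer (L : Set G) → Lc w ≤ centralizer (L : Set G) := by
      intro w hw
      apply components_commute (hLc w) hL
      intro h0
      apply hw
      rw [mem_normalizer_iff]
      intro x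
      constructor
      · intro hx
        rw [← h0]; exact hLcm w x hx
      · intro hx
        rw [← h0] at hx
        obtain ⟨a, ha, hax⟩ := hx
        have h1 : w * a * w⁻¹ = w * x * w⁻¹ := hax
        have h2 : a = x := mul_left_cancel (mul_right_cancel h1)
        rwa [h2] at ha
    have htriv : ∀ x, x ∈ L → x ∈ centralizer (L : Set G) → x = 1 := by
      intro x h1 h2
      rw [← mem_bot, ← hcenL L hL]; exact mem_inf.2 ⟨h1, h2⟩
    by_cases hV₁ : V ⊓ normalizer (L : Set G) = ⊥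
    · obtain ⟨a, ha, ha1, hao⟩ : ∃ a ∈ L, a ≠ 1 ∧ Odd (orderOf a) := by
        by_contra hcon2
        push Not at hcon2
        apply component_ne_bot hL
        apply h.subnormal hL.1
        intro g
        obtain ⟨k, m, hm, hkm⟩ := Nat.exists_eq_two_pow_mul_odd (orderOf_pos (g : G)).ne'
        refine ⟨k, Subtype.ext ?_⟩
        push_cast
        by_contra hg1
        apply hcon2 ((g : G) ^ 2 ^ k) (pow_mem g.2 _) hg1
        rw [orderOf_pow, hkm, Nat.gcd_eq_right (dvd_mul_right _ _), Nat.mul_div_cancel_left _ (by positivity)]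
        exact hm
      have hvv := ea_sq h.ea v hv
      have hbC : v * a⁻¹ * v⁻¹ ∈ centralizer (L : Set G) := hne v hvL (hLcm v _ (inv_mem ha))
      have hab : Commute a (v * a⁻¹ * v⁻¹) := mem_centralizer_iff.1 hbC a ha
      have hxo : Odd (orderOf (a * (v * a⁻¹ * v⁻¹))) := by
        refine hao.of_dvd_nat (orderOf_dvd_of_pow_eq_one ?_)
        rw [hab.mul_pow, conj_pow, inv_pow, pow_orderOf_eq_one]; group
      have hxi : v * (a * (v * a⁻¹ * v⁻¹)) * v⁻¹ = (a * (v * a⁻¹ * v⁻¹))⁻¹ := by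
        have h1 : v * (a * (v * a⁻¹ * v⁻¹)) * v⁻¹ = v * a * v⁻¹ * ((v * v) * a⁻¹ * (v * v)⁻¹) := by group
        rw [h1, hvv]; group
      obtain ⟨w, hw, hw1, hwx⟩ := h.sp _ v hv hxo hxi
      have hnn : ∀ w ∈ V, w ≠ 1 → w ∉ normalizer (L : Set G) := by
        intro w hw hw1 hwn
        apply hw1
        rw [← mem_bot, ← hV₁]; exact mem_inf.2 ⟨hw, hwn⟩
      apply ha1
      apply htriv a ha
      by_cases hwv : w = v
      · rw [hwv] at hwx
        rw [hwx, mul_inv_cancel_right] at hxi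
        have h1 : a * (v * a⁻¹ * v⁻¹) = 1 := by
          have h2 : (a * (v * a⁻¹ * v⁻¹)) ^ 2 = 1 := by
            rw [pow_two]; nth_rewrite 2 [hxi]; exact mul_inv_cancel _
          have h3 := Nat.dvd_gcd (orderOf_dvd_of_pow_eq_one h2) dvd_rfl
          rw [Nat.Coprime.gcd_eq_one hxo.coprime_two_left, Nat.dvd_one, orderOf_eq_one_iff] at h3
          exact h3
        rw [eq_inv_of_mul_eq_one_left h1]
        exact inv_mem hbC
      · have hwv1 : w * v ≠ 1 := by
          intro h0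
          apply hwv
          rw [eq_inv_of_mul_eq_one_left h0]
          exact inv_eq_of_mul_eq_one_left hvv
        have h1 := hne w (hnn w hw hw1) (hLcm w a ha)
        have h2 := hne (w * v) (hnn _ (mul_mem hw hv) hwv1) (hLcm (w * v) _ (inv_mem ha))
        have h3 : a = (w * a * w⁻¹) * (w * v * a⁻¹ * (w * v)⁻¹) * (v * a⁻¹ * v⁻¹)⁻¹ := by
          have h4 : (w * a * w⁻¹) * (w * v * a⁻¹ * (w * v)⁻¹) = w * (a * (v * a⁻¹ * v⁻¹)) * w⁻¹ := by group
          rw [h4, hwx]; group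
        rw [h3]
        exact mul_mem (mul_mem h1 h2) (inv_mem hbC)
    · have hV₁e : IsElementaryAbelian 2 (V ⊓ normalizer (L : Set G) : Subgroup G) :=
        ea_of_le h.ea inf_le_left
      obtain ⟨x, hx, y, hy, ho, hi, hc⟩ := L2 h.minG (h.core_subnormal hL.1) hV₁e hV₁ inf_le_right (by
        intro h0
        apply hvL
        have h1 : L ⊔ V ⊓ normalizer (L : Set G) ≤ normalizer (L : Set G) := sup_le le_normalizer inf_le_right
        rw [h0] at h1
        exact h1 (mem_top v)) (by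
        rw [eq_bot_iff, ← h.inf_cent _ hKne]
        intro y hy
        obtain ⟨h1, h2⟩ := mem_inf.1 hy
        have hyV := (mem_inf.1 h1).1
        refine mem_inf.2 ⟨hyV, ?_⟩
        have h3 : zpowers y ≤ centralizer ((sSup S : Subgroup G) : Set G) := by
          apply le_centralizer_sSup
          rintro M ⟨u, hu, rfl⟩
          rw [zpowers_le, mem_centralizer_iff]
          rintro _ ⟨a, ha, rfl⟩
          show u * a * u⁻¹ * y = y * (u * a * u⁻¹)
          have hay : a * y = y * a := mem_centralizer_iff.1 h2 a ha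
          have huy := ea_comm h.ea u hu y hyV
          calc u * a * u⁻¹ * y = u * a * u⁻¹ * (y * u) * u⁻¹ := by group
            _ = u * (a * y) * u⁻¹ := by rw [← huy]; group
            _ = (u * y) * a * u⁻¹ := by rw [hay]; group
            _ = y * (u * a * u⁻¹) := by rw [huy]; group
        exact h3 (mem_zpowers y))
      obtain ⟨w, hw, hw1, hwx⟩ := h.sp x y (mem_inf.1 hy).1 ho hi
      have hwn : w ∉ normalizer (L : Set G) := fun hn => hw1 (hc w (mem_inf.2 ⟨hw, hn⟩) hwx)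
      have hx1 : x = 1 := by
        apply htriv x hx
        have h1 := hne w hwn (hLcm w x hx)
        rwa [hwx, mul_inv_cancel_right] at h1
      apply hV₁
      rw [eq_bot_iff]
      intro z hz
      exact mem_bot.2 (hc z hz (by rw [hx1]; simp))
  have huniq : ∀ M, IsComponent M → M = L := by
    intro M hM
    obtain ⟨v, hv, hMv⟩ := hall M hM
    apply component_eq_of_le hM hL
    rw [hMv]
    rintro _ ⟨a, ha, rfl⟩
    exact (mem_normalizer_iff.1 (hfix v hv) a).1 ha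
  have hF : generalizedFittingSubgroup G = L := by
    rw [hFE]
    unfold layer
    apply le_antisymm
    · apply sSup_le
      intro K hK
      rw [huniq K hK]
    · exact le_sSup hL
  refine ⟨?_, ?_, htop⟩
  · rw [hF]
    have hcb : center ↥L = ⊥ := by
      rw [eq_bot_iff]
      intro y hy
      have h1 : (y : G) ∈ L ⊓ centralizer (L : Set G) := by
        refine mem_inf.2 ⟨y.2, ?_⟩
        rw [mem_centralizer_iff]
        intro g hg
        exact congrArg Subtype.val ((mem_center_iff.1 hy) ⟨g, hg⟩)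
      rw [hcenL L hL, mem_bot] at h1
      exact mem_bot.2 (Subtype.ext h1)
    have h1 := hL.2.2
    have e : (↥L ⧸ center ↥L) ≃* ↥L :=
      (QuotientGroup.quotientMulEquivOfEq hcb).trans (QuotientGroup.quotientBot)
    haveI := h1
    exact MulEquiv.isSimpleGroup e.symm
  · rw [hF]; exact not_isMulCommutative_of_quasisimple hL.2

end setup

end Cfsg.Agent.Lib.H1Sidki
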