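import Cfsg.Agent.Lib.SubnormalizerP
import Cfsg.Agent.Lib.RelSylow

/-!
# Number of elements of the subnormalizer of a `p`-subgroup in a `p`-solvable group (helper1)
-/

set_option autoImplicit false
set_option linter.all false

namespace Cfsg.Agent.Lib.H1SubCount

open Subgroup Cfsg.Agent.Lib.RelSylow

universe u v

theorem card_of_fiber {A : Type u} {B : Type v} [Finite A] [Finite B] (φ : A → B) (c : ℕ)
    (h : ∀ b, Nat.card {a // φ a = b} = c) : Nat.card A = Nat.card B * c := by
  classical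
  haveI := Fintype.ofFinite B
  rw [← Nat.card_congr (Equiv.sigmaFiberEquiv φ), Nat.card_sigma]
  rw [Finset.sum_congr rfl (fun b _ => h b), Finset.sum_const, Finset.card_univ,
    Nat.card_eq_fintype_card, smul_eq_mul]

section V

variable {G : Type u} [Group G]

/-- the smallest subgroup containing `H` normalized by `x` -/
def V (H : Subgroup G) (x : G) : Subgroup G := sInf {R | H ≤ R ∧ x ∈ normalizer (R : Set G)}

theorem le_V (H : Subgroup G) (x : G) : H ≤ V H x := le_sInf fun _ h => h.1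

theorem V_le {H R : Subgroup G} {x : G} (h : H ≤ R) (hx : x ∈ normalizer (R : Set G)) : V H x ≤ R :=
  sInf_le ⟨h, hx⟩

theorem mem_normalizer_V (H : Subgroup G) (x : G) : x ∈ normalizer ((V H x : Subgroup G) : Set G) := by
  rw [mem_normalizer_iff]
  intro y
  rw [V, mem_sInf, mem_sInf]
  constructor
  · intro h R hR
    exact (mem_normalizer_iff.1 hR.2 y).1 (h R hR)
  · intro h R hR
    exact (mem_normalizer_iff.1 hR.2 y).2 (h R hR)

theorem mem_normalizer_comap {Q : Type v} [Group Q] (f : G →* Q) {R : Subgroup Q} {x : G}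
    (h : f x ∈ normalizer (R : Set Q)) : x ∈ normalizer ((R.comap f : Subgroup G) : Set G) := by
  rw [mem_normalizer_iff]
  intro y
  rw [mem_comap, mem_comap, map_mul, map_mul, map_inv]
  exact mem_normalizer_iff.1 h (f y)

theorem mem_normalizer_map {Q : Type v} [Group Q] (f : G →* Q) {R : Subgroup G} {x : G}
    (h : x ∈ normalizer (R : Set G)) : f x ∈ normalizer ((R.map f : Subgroup Q) : Set Q) := by
  rw [mem_normalizer_iff]
  intro y
  constructor
  · rintro ⟨r, hr, rfl⟩
    exact ⟨x * r * x⁻¹, (mem_normalizer_iff.1 h r).1 hr, by simp⟩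
  · rintro ⟨r, hr, hr'⟩
    refine ⟨x⁻¹ * r * x, (mem_normalizer_iff''.1 h r).1 hr, ?_⟩
    rw [map_mul, map_mul, hr', map_inv]
    group

theorem map_V {Q : Type v} [Group Q] (f : G →* Q) (H : Subgroup G) (x : G) :
    (V H x).map f = V (H.map f) (f x) := by
  apply le_antisymm
  · rw [map_le_iff_le_comap]
    exact V_le ((map_le_iff_le_comap).1 (le_V _ _)) (mem_normalizer_comap f (mem_normalizer_V _ _))
  · exact V_le (map_mono (le_V _ _)) (mem_normalizer_map f (mem_normalizer_V _ _))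

/-- the subnormalizer -/
def SS (p : ℕ) (H : Subgroup G) : Set G := {x | IsPGroup p (V H x)}

theorem mem_SS_iff {p : ℕ} {H : Subgroup G} {x : G} :
    x ∈ SS p H ↔ ∃ R : Subgroup G, H ≤ R ∧ IsPGroup p R ∧ x ∈ normalizer (R : Set G) := by
  constructor
  · intro h
    exact ⟨_, le_V _ _, h, mem_normalizer_V _ _⟩
  · rintro ⟨R, h1, h2, h3⟩
    exact h2.to_le (V_le h1 h3)

theorem subn_iff [Finite G] {p : ℕ} [Fact p.Prime] {H : Subgroup G} (hH : IsPGroup p H) (g : G) :
    (H.subgroupOf (H ⊔ Subgroup.zpowers g)).IsSubnormal ↔ g ∈ SS p H := by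
  rw [SubnormalizerP.subn_iff hH, mem_SS_iff]

end V

section maps

variable {G : Type u} {Q : Type v} [Group G] [Group Q] (f : G →* Q)

theorem map_mem_SS {p : ℕ} {H : Subgroup G} {x : G} (h : x ∈ SS p H) : f x ∈ SS p (H.map f) := by
  show IsPGroup p (V (H.map f) (f x))
  rw [← map_V]
  exact IsPGroup.map h f

theorem mem_SS_iff_of_ker {p : ℕ} (hk : IsPGroup p f.ker) {H : Subgroup G} {x : G} :
    x ∈ SS p H ↔ f x ∈ SS p (H.map f) := by
  refine ⟨map_mem_SS f, fun h => ?_⟩
  have h1 : IsPGroup p ((V (H.map f) (f x)).comap f) := IsPGroup.comap_of_ker_isPGroup h f hk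
  refine h1.to_le ?_
  exact V_le ((map_le_iff_le_comap).1 (le_V _ _)) (mem_normalizer_comap f (mem_normalizer_V _ _))

theorem card_fiber (hf : Function.Surjective f) (q : Q) : Nat.card {x : G // f x = q} = Nat.card f.ker := by
  obtain ⟨x₀, rfl⟩ := hf q
  refine Nat.card_congr
    { toFun := fun x => ⟨x₀⁻¹ * x, by rw [MonoidHom.mem_ker, map_mul, map_inv, x.2, inv_mul_cancel]⟩
      invFun := fun k => ⟨x₀ * k, by rw [map_mul, (MonoidHom.mem_ker).1 k.2, mul_one]⟩
      left_inv := fun x => by ext; simp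
      right_inv := fun x => by ext; simp }

/-- preimages of sets -/
theorem card_preimage [Finite G] [Finite Q] (hf : Function.Surjective f) (S : Set Q) :
    Nat.card {x : G // f x ∈ S} = Nat.card S * Nat.card f.ker := by
  refine card_of_fiber (fun x : {x : G // f x ∈ S} => (⟨f x, x.2⟩ : S)) _ ?_
  rintro ⟨q, hq⟩
  rw [← card_fiber f hf q]
  refine Nat.card_congr
    { toFun := fun x => ⟨x.1.1, congrArg Subtype.val x.2⟩
      invFun := fun x => ⟨⟨x.1, by rw [x.2]; exact hq⟩, Subtype.ext x.2⟩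
      left_inv := fun x => rfl
      right_inv := fun x => rfl }

theorem card_SS_of_ker [Finite G] [Finite Q] (hf : Function.Surjective f) {p : ℕ} (hk : IsPGroup p f.ker)
    (H : Subgroup G) : Nat.card (SS p H) = Nat.card (SS p (H.map f)) * Nat.card f.ker := by
  rw [← card_preimage f hf]
  exact Nat.card_congr (Equiv.subtypeEquivRight fun x => mem_SS_iff_of_ker f hk)

end maps

section coprime

variable {G : Type u} {Q : Type v} [Group G] [Group Q] [Finite G] [Finite Q] (f : G →* Q)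
  {p : ℕ} [hp : Fact p.Prime]

omit [Finite G] in
theorem card_mul_relIndex {A B : Subgroup G} (h : A ≤ B) : Nat.card A * A.relIndex B = Nat.card B := by
  have := relIndex_mul_relIndex (⊥ : Subgroup G) A B bot_le h
  rwa [relIndex_bot_left, relIndex_bot_left] at this

theorem inf_ker (hk : ¬ p ∣ Nat.card f.ker) {T : Subgroup G} (hT : IsPGroup p T) : T ⊓ f.ker = ⊥ := by
  apply inf_eq_bot_of_coprime
  obtain ⟨k, hk'⟩ := IsPGroup.iff_card.mp hT
  rw [hk']
  exact Nat.Coprime.pow_left _ ((Nat.Prime.coprime_iff_not_dvd hp.out).mpr hk)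

theorem eq_of_le_of_map (hk : ¬ p ∣ Nat.card f.ker) {S T : Subgroup G} (hT : IsPGroup p T) (hST : S ≤ T)
    (h : T.map f ≤ S.map f) : S = T := by
  refine le_antisymm hST fun t ht => ?_
  obtain ⟨s, hs, hst⟩ := h ⟨t, ht, rfl⟩
  have h1 : s⁻¹ * t ∈ T ⊓ f.ker := by
    refine mem_inf.2 ⟨mul_mem (inv_mem (hST hs)) ht, ?_⟩
    rw [MonoidHom.mem_ker, map_mul, map_inv, hst, inv_mul_cancel]
  rw [inf_ker f hk hT, mem_bot, inv_mul_eq_one] at h1
  rw [← h1]; exact hs

theorem isSyl_comap (hk : ¬ p ∣ Nat.card f.ker) {T : Subgroup G} (hT : IsPGroup p T) :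
    IsSyl p T ((T.map f).comap f) := by
  refine ⟨le_comap_map _ _, hT, ?_⟩
  rw [comap_map_eq]
  intro h
  apply hk
  have h1 : Nat.card T * T.relIndex (T ⊔ f.ker) = Nat.card T * Nat.card f.ker := by
    rw [card_mul_relIndex le_sup_left]
    have h2 := card_mul_relIndex (A := f.ker) (B := T ⊔ f.ker) le_sup_right
    rw [sup_comm, relIndex_sup_left] at h2
    rw [sup_comm, ← h2, mul_comm (Nat.card T)]
    congr 1
    rw [← inf_relIndex_right, inf_comm, inf_ker f hk hT, relIndex_bot_left]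
  have h3 := Nat.eq_of_mul_eq_mul_left (Nat.card_pos) h1
  rwa [h3] at h

/-- two `p`-subgroups with the same image are conjugate under the kernel -/
theorem exists_conj (hk : ¬ p ∣ Nat.card f.ker) {T T' : Subgroup G} (hT : IsPGroup p T) (hT' : IsPGroup p T')
    (h : T.map f = T'.map f) : ∃ n ∈ f.ker, T' = T.map (MulAut.conj n).toMonoidHom := by
  have h1 := isSyl_comap f hk hT
  have h2 := isSyl_comap f hk hT'
  rw [← h] at h2
  obtain ⟨g, hg, hgT⟩ := h1.conj h2
  rw [comap_map_eq] at hg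
  obtain ⟨n, hn, t, ht, rfl⟩ := (mem_sup_of_normal_left (s := f.ker) (t := T)).1 (by rwa [sup_comm])
  refine ⟨n, hn, ?_⟩
  rw [← hgT, ← conj_conj, conj_eq_of_mem ht]

theorem mem_centralizer_of (hk : ¬ p ∣ Nat.card f.ker) {T H : Subgroup G} (hT : IsPGroup p T) {n : G}
    (hn : n ∈ f.ker) (hH : H ≤ T) (hH' : ∀ h ∈ H, n * h * n⁻¹ ∈ T) : n ∈ centralizer (H : Set G) := by
  rw [mem_centralizer_iff]
  intro h hh
  have h1 : n * h * n⁻¹ * h⁻¹ ∈ T ⊓ f.ker := by
    refine mem_inf.2 ⟨mul_mem (hH' h hh) (inv_mem (hH hh)), ?_⟩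
    have : n * h * n⁻¹ * h⁻¹ = n * (h * n⁻¹ * h⁻¹) := by group
    rw [this]
    exact mul_mem hn ((inferInstance : f.ker.Normal).conj_mem _ (inv_mem hn) h)
  rw [inf_ker f hk hT, mem_bot] at h1
  have h2 : n * h * n⁻¹ = h := mul_inv_eq_one.1 h1
  exact (mul_inv_eq_iff_eq_mul.1 h2).symm

/-- the counting step for a `p'`-kernel -/
theorem card_fiber_SS (hf : Function.Surjective f) (hk : ¬ p ∣ Nat.card f.ker) (H : Subgroup G)
    (hH : IsPGroup p H) (q : Q) (hq : q ∈ SS p (H.map f)) :
    Nat.card {x : G // f x = q ∧ x ∈ SS p H} = Nat.card (centralizer (H : Set G) ⊓ f.ker : Subgroup G) := by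
  classical
  set W := V (H.map f) q with hW
  have hWp : IsPGroup p W := hq
  -- a first member
  obtain ⟨T₀, hT₀H, hT₀p, hT₀f⟩ : ∃ T₀ : Subgroup G, H ≤ T₀ ∧ IsPGroup p T₀ ∧ T₀.map f = W := by
    have hle : H ≤ W.comap f := map_le_iff_le_comap.1 (le_V _ _)
    obtain ⟨T₀, h1, h2⟩ := exists_isSyl_ge hH hle
    refine ⟨T₀, h1, h2.2.1, ?_⟩
    have h3 := h2.map f
    rw [map_comap_eq_self_of_surjective hf] at h3
    exact h3.eq_of_le hWp le_rfl h3.1
  let TT := {T : Subgroup G // H ≤ T ∧ IsPGroup p T ∧ T.map f = W}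
  set c := Nat.card (normalizer (T₀ : Set G) ⊓ f.ker : Subgroup G) with hc
  have hconj : ∀ T : TT, ∃ n ∈ f.ker, T.1 = T₀.map (MulAut.conj n).toMonoidHom := fun T =>
    exists_conj f hk hT₀p T.2.2.1 (hT₀f.trans T.2.2.2.symm)
  -- the order of the centralizer
  have hK : Nat.card (centralizer (H : Set G) ⊓ f.ker : Subgroup G) = Nat.card TT * c := by
    refine card_of_fiber (fun k : (centralizer (H : Set G) ⊓ f.ker : Subgroup G) =>
      (⟨T₀.map (MulAut.conj (k : G)).toMonoidHom, ?_, ?_, ?_⟩ : TT)) c ?_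
    · intro h hh
      rw [mem_conj_iff]
      have h1 := (mem_centralizer_iff.1 (mem_inf.1 k.2).1) h hh
      have h2 : (k : G)⁻¹ * h * k = h := by
        rw [mul_assoc, h1, inv_mul_cancel_left]
      rw [h2]; exact hT₀H hh
    · exact hT₀p.map _
    · have h1 : (k : G) ∈ f.ker := (mem_inf.1 k.2).2
      rw [MonoidHom.mem_ker] at h1
      rw [← hT₀f]
      ext y
      constructor
      · rintro ⟨_, ⟨t, ht, rfl⟩, rfl⟩
        refine ⟨t, ht, ?_⟩
        show f t = f ((k : G) * t * (k : G)⁻¹)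
        rw [map_mul, map_mul, map_inv, h1]; simp
      · rintro ⟨t, ht, rfl⟩
        refine ⟨_, ⟨t, ht, rfl⟩, ?_⟩
        show f ((k : G) * t * (k : G)⁻¹) = f t
        rw [map_mul, map_mul, map_inv, h1]; simp
    · intro T
      obtain ⟨n, hn, hTn⟩ := hconj T
      rw [hc]
      refine Nat.card_congr
        { toFun := fun k => ⟨n⁻¹ * (k.1 : G), mem_inf.2 ⟨?_, ?_⟩⟩
          invFun := fun m => ⟨⟨n * (m : G), mem_inf.2 ⟨?_, ?_⟩⟩, ?_⟩
          left_inv := fun k => by
            apply Subtype.ext; apply Subtype.ext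
            show n * (n⁻¹ * (k.1 : G)) = k.1
            group
          right_inv := fun m => by
            apply Subtype.ext
            show n⁻¹ * (n * (m : G)) = m
            group }
      · have h1 : T₀.map (MulAut.conj (k.1 : G)).toMonoidHom = T.1 := congrArg Subtype.val k.2
        rw [mem_normalizer_iff_map, ← conj_conj, h1, hTn, conj_conj, inv_mul_cancel, conj_one]
      · exact mul_mem (inv_mem hn) (mem_inf.1 k.1.2).2
      · -- in the centralizer
        apply mem_centralizer_of f hk T.2.2.1 (mul_mem hn (mem_inf.1 m.2).2) T.2.1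
        intro h hh
        have h2 : (m : G) * h * (m : G)⁻¹ ∈ T₀ :=
          (mem_normalizer_iff.1 (mem_inf.1 m.2).1 h).1 (hT₀H hh)
        rw [hTn, mem_conj_iff]
        have h3 : n⁻¹ * (n * (m : G) * h * (n * (m : G))⁻¹) * n = (m : G) * h * (m : G)⁻¹ := by group
        rw [h3]; exact h2
      · exact mul_mem hn (mem_inf.1 m.2).2
      · apply Subtype.ext
        show T₀.map (MulAut.conj (n * (m : G))).toMonoidHom = T.1
        rw [← conj_conj, conj_eq_of_mem_normalizer (mem_inf.1 m.2).1, hTn]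
  rw [hK]
  -- an element over `q` normalizing `T₀`
  obtain ⟨x₀, hx₀q, hx₀N⟩ : ∃ x₀ : G, f x₀ = q ∧ x₀ ∈ normalizer (T₀ : Set G) := by
    obtain ⟨g₀, hg₀⟩ := hf q
    have h1 : (T₀.map (MulAut.conj g₀).toMonoidHom).map f = T₀.map f := by
      have h2 : (T₀.map (MulAut.conj g₀).toMonoidHom).map f =
          (T₀.map f).map (MulAut.conj q).toMonoidHom := by
        rw [Subgroup.map_map, Subgroup.map_map]
        congr 1
        ext t
        show f (g₀ * t * g₀⁻¹) = q * f t * q⁻¹
        rw [map_mul, map_mul, map_inv, hg₀]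
      rw [h2, hT₀f, conj_eq_of_mem_normalizer (mem_normalizer_V _ _)]
    obtain ⟨m, hm, hmT⟩ := exists_conj f hk (hT₀p.map (MulAut.conj g₀).toMonoidHom) hT₀p h1
    refine ⟨m * g₀, ?_, ?_⟩
    · rw [map_mul, (MonoidHom.mem_ker).1 hm, one_mul, hg₀]
    · rw [mem_normalizer_iff_map, ← conj_conj]
      exact hmT.symm
  have huniq : ∀ (T : TT) (x : G), f x = q → x ∈ normalizer (T.1 : Set G) → V H x = T.1 := by
    intro T x hx hxN
    refine eq_of_le_of_map f hk T.2.2.1 (V_le T.2.1 hxN) ?_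
    rw [map_V, hx, T.2.2.2]
  refine card_of_fiber (fun x : {x : G // f x = q ∧ x ∈ SS p H} =>
    (⟨V H x.1, le_V _ _, x.2.2, by rw [map_V, x.2.1]⟩ : TT)) c ?_
  intro T
  obtain ⟨n, hn, hTn⟩ := hconj T
  rw [hc]
  have hnf : f n = 1 := (MonoidHom.mem_ker).1 hn
  refine Nat.card_congr
    { toFun := fun x => ⟨x₀⁻¹ * (n⁻¹ * (x.1.1 : G) * n), mem_inf.2 ⟨?_, ?_⟩⟩
      invFun := fun m => ⟨⟨n * (x₀ * (m : G)) * n⁻¹, ?_, ?_⟩, ?_⟩
      left_inv := fun x => by
        apply Subtype.ext; apply Subtype.ext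
        show n * (x₀ * (x₀⁻¹ * (n⁻¹ * (x.1.1 : G) * n))) * n⁻¹ = x.1.1
        group
      right_inv := fun m => by
        apply Subtype.ext
        show x₀⁻¹ * (n⁻¹ * (n * (x₀ * (m : G)) * n⁻¹) * n) = m
        group }
  · refine mul_mem (inv_mem hx₀N) ?_
    have h1 : V H x.1.1 = T.1 := congrArg Subtype.val x.2
    have h2 : x.1.1 ∈ normalizer (T.1 : Set G) := by
      rw [← h1]; exact mem_normalizer_V _ _
    rw [hTn, ← normalizer_conj, mem_conj_iff] at h2
    exact h2
  · rw [MonoidHom.mem_ker]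
    simp only [map_mul, map_inv, hnf, hx₀q, x.1.2.1]
    group
  · simp only [map_mul, map_inv, hnf, hx₀q, (MonoidHom.mem_ker).1 (mem_inf.1 m.2).2]
    group
  · rw [mem_SS_iff]
    refine ⟨T.1, T.2.1, T.2.2.1, ?_⟩
    rw [hTn, ← normalizer_conj, mem_conj_iff]
    have h3 : n⁻¹ * (n * (x₀ * (m : G)) * n⁻¹) * n = x₀ * (m : G) := by group
    rw [h3]
    exact mul_mem hx₀N (mem_inf.1 m.2).1
  · apply Subtype.ext
    refine huniq T _ ?_ ?_
    · show f (n * (x₀ * (m : G)) * n⁻¹) = q
      simp only [map_mul, map_inv, hnf, hx₀q, (MonoidHom.mem_ker).1 (mem_inf.1 m.2).2]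
      group
    · show n * (x₀ * (m : G)) * n⁻¹ ∈ normalizer (T.1 : Set G)
      rw [hTn, ← normalizer_conj, mem_conj_iff]
      have h3 : n⁻¹ * (n * (x₀ * (m : G)) * n⁻¹) * n = x₀ * (m : G) := by group
      rw [h3]
      exact mul_mem hx₀N (mem_inf.1 m.2).1

theorem card_SS_of_coprime (hf : Function.Surjective f) (hk : ¬ p ∣ Nat.card f.ker) (H : Subgroup G)
    (hH : IsPGroup p H) :
    Nat.card (SS p H) = Nat.card (SS p (H.map f)) *
      Nat.card (centralizer (H : Set G) ⊓ f.ker : Subgroup G) := by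
  refine card_of_fiber (fun x : SS p H => (⟨f x, map_mem_SS f x.2⟩ : SS p (H.map f))) _ ?_
  rintro ⟨q, hq⟩
  rw [← card_fiber_SS f hf hk H hH q hq]
  refine Nat.card_congr
    { toFun := fun x => ⟨x.1.1, congrArg Subtype.val x.2, x.1.2⟩
      invFun := fun x => ⟨⟨x.1, x.2.2⟩, Subtype.ext x.2.1⟩
      left_inv := fun x => rfl
      right_inv := fun x => rfl }

end coprime

section chain

variable {G : Type u} [Group G] [Finite G] {p : ℕ} [hp : Fact p.Prime]

/-- size of the subnormalizer of the image of `H` in `G ⧸ N` -/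
noncomputable def cnt (p : ℕ) (H N : Subgroup G) (hN : N.Normal) : ℕ :=
  haveI := hN
  Nat.card (SS p (H.map (QuotientGroup.mk' N)))

theorem cnt_bot (H : Subgroup G) (hN : (⊥ : Subgroup G).Normal) : cnt p H ⊥ hN = Nat.card (SS p H) := by
  have h1 : IsPGroup p (QuotientGroup.mk' (⊥ : Subgroup G)).ker := by
    rw [QuotientGroup.ker_mk']; exact IsPGroup.of_bot
  have h2 := card_SS_of_ker (QuotientGroup.mk' (⊥ : Subgroup G)) (QuotientGroup.mk'_surjective _) h1 H
  rw [QuotientGroup.ker_mk', card_bot, mul_one] at h2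
  exact h2.symm

theorem cnt_top (H : Subgroup G) (hN : (⊤ : Subgroup G).Normal) : cnt p H ⊤ hN = 1 := by
  haveI : Subsingleton (G ⧸ (⊤ : Subgroup G)) := QuotientGroup.subsingleton_quotient_top
  rw [cnt, Nat.card_eq_one_iff_unique]
  refine ⟨inferInstance, ⟨1, ?_⟩⟩
  rw [mem_SS_iff]
  refine ⟨⊤, le_top, ?_, ?_⟩
  · have : Subsingleton (⊤ : Subgroup (G ⧸ (⊤ : Subgroup G))) := inferInstance
    intro g
    exact ⟨0, Subsingleton.elim _ _⟩
  · exact le_normalizer (mem_top _)

theorem ker_qmap (N M : Subgroup G) [N.Normal] [M.Normal] (h : N ≤ M) :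
    (QuotientGroup.map N M (MonoidHom.id G) h).ker = M.map (QuotientGroup.mk' N) := by
  ext x
  obtain ⟨x, rfl⟩ := QuotientGroup.mk_surjective x
  rw [MonoidHom.mem_ker]
  change ((x : G ⧸ M) = 1) ↔ _
  rw [QuotientGroup.eq_one_iff]
  constructor
  · intro hx
    exact ⟨x, hx, rfl⟩
  · rintro ⟨y, hy, hyx⟩
    rw [QuotientGroup.mk'_apply, QuotientGroup.eq] at hyx
    have := mul_mem hy (h hyx)
    rwa [mul_inv_cancel_left] at this

theorem card_ker_qmap (N M : Subgroup G) [N.Normal] [M.Normal] (h : N ≤ M) :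
    Nat.card (QuotientGroup.map N M (MonoidHom.id G) h).ker = N.relIndex M := by
  rw [ker_qmap]
  have h1 := card_preimage (QuotientGroup.mk' N) (QuotientGroup.mk'_surjective _)
    ((M.map (QuotientGroup.mk' N) : Subgroup (G ⧸ N)) : Set (G ⧸ N))
  rw [QuotientGroup.ker_mk'] at h1
  have h2 : Nat.card {x : G // (QuotientGroup.mk' N) x ∈
      ((M.map (QuotientGroup.mk' N) : Subgroup (G ⧸ N)) : Set (G ⧸ N))} = Nat.card M := by
    refine Nat.card_congr (Equiv.subtypeEquivRight fun x => ?_)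
    rw [SetLike.mem_coe, ← mem_comap, QuotientGroup.comap_map_mk', sup_eq_right.2 h]
  rw [h2, ← card_mul_relIndex h, mul_comm] at h1
  exact (Nat.eq_of_mul_eq_mul_right Nat.card_pos h1).symm

theorem map_qmap (H N M : Subgroup G) [N.Normal] [M.Normal] (h : N ≤ M) :
    (H.map (QuotientGroup.mk' N)).map (QuotientGroup.map N M (MonoidHom.id G) h) =
      H.map (QuotientGroup.mk' M) := by
  rw [Subgroup.map_map]
  rfl

theorem qmap_surj (N M : Subgroup G) [N.Normal] [M.Normal] (h : N ≤ M) :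
    Function.Surjective (QuotientGroup.map N M (MonoidHom.id G) h) := by
  intro x
  obtain ⟨x, rfl⟩ := QuotientGroup.mk_surjective x
  exact ⟨(x : G ⧸ N), rfl⟩

theorem cnt_p (H N M : Subgroup G) (hN : N.Normal) (hM : M.Normal) (h : N ≤ M) {m : ℕ}
    (hm : N.relIndex M = p ^ m) : cnt p H N hN = N.relIndex M * cnt p H M hM := by
  have h1 := card_ker_qmap N M h
  have h2 := card_SS_of_ker (QuotientGroup.map N M (MonoidHom.id G) h) (qmap_surj N M h) (p := p)
    (IsPGroup.of_card (h1.trans hm)) (H.map (QuotientGroup.mk' N))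
  rw [h1, map_qmap] at h2
  rw [cnt, cnt, h2, mul_comm]

theorem cnt_coprime (H N M : Subgroup G) (hH : IsPGroup p H) (hN : N.Normal) (hM : M.Normal) (h : N ≤ M)
    (hm : (N.relIndex M).Coprime p) : cnt p H N hN =
      (Nat.card {u : G // u ∈ M ∧ ∀ h ∈ H, h * u * h⁻¹ * u⁻¹ ∈ N} / Nat.card N) * cnt p H M hM := by
  have h1 := card_ker_qmap N M h
  have h2 := card_SS_of_coprime (QuotientGroup.map N M (MonoidHom.id G) h) (qmap_surj N M h) (p := p)
    (by rw [h1, ← hp.out.coprime_iff_not_dvd]; exact hm.symm) (H.map (QuotientGroup.mk' N)) (hH.map _)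
  rw [map_qmap, ker_qmap] at h2
  rw [cnt, cnt, h2, mul_comm]
  congr 1
  have h3 := card_preimage (QuotientGroup.mk' N) (QuotientGroup.mk'_surjective _)
    ((centralizer ((H.map (QuotientGroup.mk' N) : Subgroup (G ⧸ N)) : Set (G ⧸ N)) ⊓
      M.map (QuotientGroup.mk' N) : Subgroup (G ⧸ N)) : Set (G ⧸ N))
  rw [QuotientGroup.ker_mk'] at h3
  have h4 : Nat.card {x : G // (QuotientGroup.mk' N) x ∈
      ((centralizer ((H.map (QuotientGroup.mk' N) : Subgroup (G ⧸ N)) : Set (G ⧸ N)) ⊓
      M.map (QuotientGroup.mk' N) : Subgroup (G ⧸ N)) : Set (G ⧸ N))} =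
      Nat.card {u : G // u ∈ M ∧ ∀ h ∈ H, h * u * h⁻¹ * u⁻¹ ∈ N} := by
    refine Nat.card_congr (Equiv.subtypeEquivRight fun x => ?_)
    rw [SetLike.mem_coe, mem_inf, and_comm, ← mem_comap, QuotientGroup.comap_map_mk', sup_eq_right.2 h,
      mem_centralizer_iff]
    refine and_congr_right fun _ => ?_
    constructor
    · intro hx y hy
      have h5 := hx _ ⟨y, hy, rfl⟩
      rw [← QuotientGroup.eq_one_iff, QuotientGroup.mk_mul, QuotientGroup.mk_mul, QuotientGroup.mk_mul,
        QuotientGroup.mk_inv, QuotientGroup.mk_inv]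
      simp only [QuotientGroup.mk'_apply] at h5
      rw [h5]; group
    · rintro hx _ ⟨y, hy, rfl⟩
      have h5 := hx y hy
      rw [← QuotientGroup.eq_one_iff, QuotientGroup.mk_mul, QuotientGroup.mk_mul, QuotientGroup.mk_mul,
        QuotientGroup.mk_inv, QuotientGroup.mk_inv] at h5
      simp only [QuotientGroup.mk'_apply]
      have h6 : (y : G ⧸ N) * x * (y : G ⧸ N)⁻¹ = x := mul_inv_eq_one.1 h5
      exact mul_inv_eq_iff_eq_mul.1 h6
  rw [h4] at h3
  exact (Nat.div_eq_of_eq_mul_left Nat.card_pos h3).symm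

theorem tele : ∀ (n : ℕ) (a : Fin (n + 1) → ℕ) (b : Fin n → ℕ)
    (h : ∀ j : Fin n, a j.castSucc = b j * a j.succ), a 0 = (∏ j, b j) * a (Fin.last n) := by
  intro n
  induction n with
  | zero => intro a b h; simp
  | succ n ih =>
    intro a b h
    have h1 : a 0 = (∏ j : Fin n, b j.castSucc) * a (Fin.last n).castSucc :=
      ih (fun j => a j.castSucc) (fun j => b j.castSucc) (fun j => h j.castSucc)
    rw [Fin.prod_univ_castSucc]
    have h2 : a (Fin.last n).castSucc = b (Fin.last n) * a (Fin.last (n + 1)) := h (Fin.last n)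
    rw [h1, h2]
    ring

theorem main (H : Subgroup G) (hH : IsPGroup p H) (P : Sylow p G)
    (n : ℕ) (M : Fin (n + 1) → Subgroup G) (h0 : M 0 = ⊥) (hn : M (Fin.last n) = ⊤) (hmono : Monotone M)
    (hnormal : ∀ i, (M i).Normal)
    (hfac : ∀ i : Fin n, (∃ m : ℕ, (M i.castSucc).relIndex (M i.succ) = p ^ m) ∨
      ((M i.castSucc).relIndex (M i.succ)).Coprime p) :
    Nat.card {g : G // ((H).subgroupOf (H ⊔ Subgroup.zpowers g)).IsSubnormal} =
      Nat.card (P : Subgroup G) *
        ∏ i : Fin n, (if ((M i.castSucc).relIndex (M i.succ)).Coprime p then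
          Nat.card {u : G // u ∈ M i.succ ∧ ∀ h ∈ H, h * u * h⁻¹ * u⁻¹ ∈ M i.castSucc} / Nat.card (M i.castSucc)
          else 1) := by
  classical
  have e1 : Nat.card {g : G // ((H).subgroupOf (H ⊔ Subgroup.zpowers g)).IsSubnormal} = Nat.card (SS p H) :=
    Nat.card_congr (Equiv.subtypeEquivRight fun g => subn_iff hH g)
  have hle : ∀ i : Fin n, M i.castSucc ≤ M i.succ := fun i => hmono (Fin.castSucc_lt_succ).le
  -- the count
  have e2 := tele n (fun i => cnt p H (M i) (hnormal i))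
    (fun i => if ((M i.castSucc).relIndex (M i.succ)).Coprime p then
          Nat.card {u : G // u ∈ M i.succ ∧ ∀ h ∈ H, h * u * h⁻¹ * u⁻¹ ∈ M i.castSucc} / Nat.card (M i.castSucc)
          else (M i.castSucc).relIndex (M i.succ)) (by
      intro i
      by_cases hc : ((M i.castSucc).relIndex (M i.succ)).Coprime p
      · show cnt p H (M i.castSucc) _ = (if _ then _ else _) * cnt p H (M i.succ) _
        rw [if_pos hc]
        exact cnt_coprime H _ _ hH _ _ (hle i) hc
      · show cnt p H (M i.castSucc) _ = (if _ then _ else _) * cnt p H (M i.succ) _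
        rw [if_neg hc]
        obtain ⟨m, hm⟩ := (hfac i).resolve_right hc
        exact cnt_p H _ _ _ _ (hle i) hm)
  have e3 := tele n (fun i => p ^ ((M i).index).factorization p)
    (fun i => if ((M i.castSucc).relIndex (M i.succ)).Coprime p then 1
          else (M i.castSucc).relIndex (M i.succ)) (by
      intro i
      have h1 : (M i.castSucc).index = (M i.castSucc).relIndex (M i.succ) * (M i.succ).index :=
        (relIndex_mul_index (hle i)).symm
      have h2 : (M i.castSucc).relIndex (M i.succ) ≠ 0 := by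
        rw [relIndex]; exact index_ne_zero_of_finite
      show p ^ ((M i.castSucc).index).factorization p = _ * p ^ ((M i.succ).index).factorization p
      rw [h1, Nat.factorization_mul h2 index_ne_zero_of_finite, Finsupp.add_apply, pow_add]
      congr 1
      by_cases hc : ((M i.castSucc).relIndex (M i.succ)).Coprime p
      · rw [if_pos hc, Nat.factorization_eq_zero_of_not_dvd, pow_zero]
        rw [← hp.out.coprime_iff_not_dvd]; exact hc.symm
      · rw [if_neg hc]
        obtain ⟨m, hm⟩ := (hfac i).resolve_right hc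
        rw [hm, hp.out.factorization_pow]; simp)
  have e4 : cnt p H (M 0) (hnormal 0) = Nat.card (SS p H) := by
    have : ∀ (N : Subgroup G) (hN : N.Normal) (h : N = ⊥), cnt p H N hN = Nat.card (SS p H) := by
      rintro N hN rfl
      exact cnt_bot H hN
    exact this _ _ h0
  have e5 : cnt p H (M (Fin.last n)) (hnormal _) = 1 := by
    have : ∀ (N : Subgroup G) (hN : N.Normal) (h : N = ⊤), cnt p H N hN = 1 := by
      rintro N hN rfl
      exact cnt_top H hN
    exact this _ _ hn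
  simp only [e4, e5, mul_one] at e2
  simp only [h0, hn, index_bot, index_top, Nat.factorization_one, Finsupp.coe_zero, Pi.zero_apply, pow_zero,
    mul_one] at e3
  rw [e1, e2, P.card_eq_multiplicity, e3, ← Finset.prod_mul_distrib]
  refine Finset.prod_congr rfl fun i _ => ?_
  by_cases hc : ((M i.castSucc).relIndex (M i.succ)).Coprime p
  · rw [if_pos hc, if_pos hc, if_pos hc, one_mul]
  · rw [if_neg hc, if_neg hc, if_neg hc, mul_one]

end chain

end Cfsg.Agent.Lib.H1SubCount
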