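import Cfsg.Agent.Lib.H25BpD
import Cfsg.Agent.Lib.ConjSylow

/-!
# Inner products of star multiples in nilpotent blocks
-/

set_option autoImplicit false

namespace Cfsg.Agent.Lib.H25BpS

open Cfsg Cfsg.Agent.Lib.BlockRing Cfsg.Agent.Lib.BlockGA Cfsg.Agent.Lib.BlockAlg
open Cfsg.Agent.Lib.BlkIdem Cfsg.Agent.Lib.PairAlg Cfsg.Agent.Lib.PairMax
open Cfsg.Agent.Lib.BlockIdem Cfsg.Agent.Lib.BlockSecond Cfsg.Agent.Lib.BrauerPairs
open Cfsg.Agent.Lib.BlkFus Cfsg.Agent.Lib.InducedPair Cfsg.Agent.Lib.DefPairs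
open Cfsg.Agent.Lib.BlkFusDef
open Cfsg.Agent.Lib.NormalPBlk (cid cj_cid)
open Cfsg.Agent.Lib.H25BpLift Cfsg.Agent.Lib.H25BpTw Cfsg.Agent.Lib.H25BpF Cfsg.Agent.Lib.H25BpI
open Cfsg.Agent.Lib.H25BpE Cfsg.Agent.Lib.H25BpG Cfsg.Agent.Lib.H25BpW Cfsg.Agent.Lib.H25BpM
open Cfsg.Agent.Lib.BlockCount (Bl D rsp rsp_orth sum_blockPart)
open Cfsg.Agent.Lib.Subsec (Cz mem_Cz D_reg D_not_reg D_mem al al_eq al_mem fs mem_fs al_ne_zero al_ne_zero')
open Cfsg.Agent.Lib (BrauerMap.br BrauerMap.cj BrauerMap.fixAlg BrauerMap.suppAlg)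
open MonoidAlgebra (single)
open scoped ComplexConjugate Classical Pointwise

universe u

variable {p : ℕ} [hp : Fact p.Prime] {M : Ideal AlgInt} [hMm : M.IsMaximal] [hchar : CharP (Kf M) p]
  {G : Type u} [Group G] [Finite G] {B : Set (IrrCharacter G)} {P : Subgroup G} {e : MonoidAlgebra (Kf M) G}

section CI

omit hp hchar in
/-- transport of local components -/
theorem D_blTr {χ : G → ℂ} (hχ : IsClassFunction G χ) (g u : G) (b : Bl M (Cz u)) (s : Cz u) :
    D p (g * u * g⁻¹) (blTr M g u b).1 χ (conjIso g (mem_Cz_conj g u) s) = D p u b.1 χ s := by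
  set e : Cz u ≃* Cz (g * u * g⁻¹) := conjIso g (mem_Cz_conj g u) with he
  have hos : orderOf (e s) = orderOf s := orderOf_injective e.toMonoidHom e.injective s
  by_cases hs : p ∣ orderOf s
  · rw [D_not_reg hs, D_not_reg (by rw [hos]; exact hs)]
  · rw [D_reg hs, D_reg (by rw [hos]; exact hs), blockPart_section hχ (fun g hg => mem_Cz.1 hg),
      blockPart_section hχ (fun g hg => mem_Cz.1 hg)]
    have h1 : cid (Cz (g * u * g⁻¹)) (blTr M g u b).1 = BrauerMap.cj g (cid (Cz u) b.1) :=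
      cj_cid g (mem_Cz_conj g u) b.1
    show lin χ (single (g * u * g⁻¹ * ((e s : Cz (g * u * g⁻¹)) : G)) 1 *
      cid (Cz (g * u * g⁻¹)) (blTr M g u b).1) = lin χ (single (u * (s : G)) 1 * cid (Cz u) b.1)
    have h2 : g * u * g⁻¹ * ((e s : Cz (g * u * g⁻¹)) : G) = g * (u * (s : G)) * g⁻¹ := by
      rw [show ((e s : Cz (g * u * g⁻¹)) : G) = g * (s : G) * g⁻¹ from rfl]; group
    rw [h1, h2, ← cj_single, ← map_mul, lin_cj hχ]

omit hp hchar in
theorem inner_blTr {χ ψ : G → ℂ} (hχ : IsClassFunction G χ) (hψ : IsClassFunction G ψ) (g u : G)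
    (b : Bl M (Cz u)) [Fintype (Cz u)] [Fintype (Cz (g * u * g⁻¹))] :
    classInner (D p (g * u * g⁻¹) (blTr M g u b).1 χ) (D p (g * u * g⁻¹) (blTr M g u b).1 ψ) =
      classInner (D p u b.1 χ) (D p u b.1 ψ) := by
  unfold classInner
  rw [← Nat.card_congr (conjIso g (mem_Cz_conj g u)).toEquiv,
    ← Equiv.sum_comp (conjIso g (mem_Cz_conj g u)).toEquiv]
  congr 1
  refine Finset.sum_congr rfl fun s _ => ?_
  show D p (g * u * g⁻¹) (blTr M g u b).1 χ (conjIso g (mem_Cz_conj g u) s) *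
    conj (D p (g * u * g⁻¹) (blTr M g u b).1 ψ (conjIso g (mem_Cz_conj g u) s)) = _
  rw [D_blTr hχ, D_blTr hψ]

/-- local inner products as a function of Brauer elements -/
noncomputable def CI (p : ℕ) (χ ψ : G → ℂ) (u : G) (f : MonoidAlgebra (Kf M) G) : ℂ :=
  letI := Fintype.ofFinite (Cz u)
  if hf : ∃ b : Bl M (Cz u), bid M (Cz u) b.1 = f then
    classInner (D p u hf.choose.1 χ) (D p u hf.choose.1 ψ) else 0

omit hp hchar in
theorem CI_eq (χ ψ : G → ℂ) (u : G) [Fintype (Cz u)] (b : Bl M (Cz u)) :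
    CI p χ ψ u (bid M (Cz u) b.1) = classInner (D p u b.1 χ) (D p u b.1 ψ) := by
  have hf : ∃ b' : Bl M (Cz u), bid M (Cz u) b'.1 = bid M (Cz u) b.1 := ⟨b, rfl⟩
  have h0 : (Fintype.ofFinite (Cz u)) = ‹Fintype (Cz u)› := Subsingleton.elim _ _
  unfold CI
  rw [dif_pos hf, h0]
  have h1 : hf.choose = b := Subtype.ext (bid_injective hf.choose.2 b.2 hf.choose_spec)
  rw [h1]

omit hp hchar in
theorem CI_conj {χ ψ : G → ℂ} (hχ : IsClassFunction G χ) (hψ : IsClassFunction G ψ) (g u : G)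
    (f : MonoidAlgebra (Kf M) G) : CI p χ ψ (g * u * g⁻¹) (BrauerMap.cj g f) = CI p χ ψ u f := by
  have := Fintype.ofFinite (Cz u)
  have := Fintype.ofFinite (Cz (g * u * g⁻¹))
  by_cases hf : ∃ b : Bl M (Cz u), bid M (Cz u) b.1 = f
  · obtain ⟨b, rfl⟩ := hf
    rw [← bid_blTr, CI_eq, CI_eq, inner_blTr hχ hψ]
  · have hf' : ¬ ∃ b : Bl M (Cz (g * u * g⁻¹)), bid M (Cz (g * u * g⁻¹)) b.1 = BrauerMap.cj g f := by
      rintro ⟨b, hb⟩
      obtain ⟨b', rfl⟩ := (blTr_bij (M := M) g u).2 b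
      rw [bid_blTr] at hb
      exact hf ⟨b', (BrauerMap.cj g).injective hb⟩
    unfold CI
    rw [dif_neg hf, dif_neg hf']

end CI

namespace Ctx

variable (h : Ctx p B P e)
include h

/-- the block of the subpair at `x` -/
noncomputable def fx (x : P) : MonoidAlgebra (Kf M) G :=
  (exists_sub (hasBlocks) h.pair (show Subgroup.zpowers (x : G) ≤ P by
    rw [Subgroup.zpowers_le]; exact x.2)).choose

theorem fx_spec (x : P) : PLE p (Subgroup.zpowers (x : G), h.fx x) (P, e) :=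
  (exists_sub (hasBlocks) h.pair (show Subgroup.zpowers (x : G) ≤ P by
    rw [Subgroup.zpowers_le]; exact x.2)).choose_spec

theorem fx_eq {x : P} {f : MonoidAlgebra (Kf M) G} (hf : PLE p (Subgroup.zpowers (x : G), f) (P, e)) :
    h.fx x = f := unique_sub hasBlocks h.pair (h.fx_spec x) hf

/-- double counting of conjugating elements -/
theorem sum_pairs [Fintype P] (Θ : G → MonoidAlgebra (Kf M) G → ℂ)
    (hΘ : ∀ g u b, Θ (g * u * g⁻¹) (BrauerMap.cj g b) = Θ u b) :
    ∑ u ∈ PE p G, ∑ b ∈ blks M (Cc u),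
      (Nat.card {g : G // PLE p (cg g (Subgroup.zpowers u), BrauerMap.cj g b) (P, e)} : ℂ) * Θ u b =
      (Nat.card G : ℂ) * ∑ x : P, Θ x (h.fx x) := by
  have := Fintype.ofFinite G
  have h1 : ∀ u b, (Nat.card {g : G // PLE p (cg g (Subgroup.zpowers u), BrauerMap.cj g b) (P, e)} : ℂ) * Θ u b =
      ∑ g : G, if PLE p (cg g (Subgroup.zpowers u), BrauerMap.cj g b) (P, e) then Θ u b else 0 := by
    intro u b
    rw [Nat.card_eq_fintype_card, Fintype.card_subtype, ← Finset.sum_filter, Finset.sum_const, nsmul_eq_mul]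
  simp only [h1]
  rw [Finset.sum_sigma', Finset.sum_comm]
  have h2 : ∀ g : G, ∑ z ∈ (PE p G).sigma (fun u => blks M (Cc u)),
      (if PLE p (cg g (Subgroup.zpowers z.1), BrauerMap.cj g z.2) (P, e) then Θ z.1 z.2 else 0) =
      ∑ x : P, Θ x (h.fx x) := by
    intro g
    rw [← Finset.sum_filter]
    have hmem : ∀ z : (_ : G) × MonoidAlgebra (Kf M) G,
        PLE p (cg g (Subgroup.zpowers z.1), BrauerMap.cj g z.2) (P, e) → g * z.1 * g⁻¹ ∈ P := by
      intro z hz
      apply hz.le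
      show g * z.1 * g⁻¹ ∈ cg g (Subgroup.zpowers z.1)
      rw [cg_zpowers]
      exact Subgroup.mem_zpowers _
    have hfx : ∀ z : (_ : G) × MonoidAlgebra (Kf M) G,
        ∀ hz : PLE p (cg g (Subgroup.zpowers z.1), BrauerMap.cj g z.2) (P, e),
        h.fx ⟨g * z.1 * g⁻¹, hmem z hz⟩ = BrauerMap.cj g z.2 := by
      intro z hz
      apply h.fx_eq
      rw [cg_zpowers] at hz
      exact hz
    refine Finset.sum_bij (fun z hz => (⟨g * z.1 * g⁻¹, hmem z (Finset.mem_filter.1 hz).2⟩ : P)) ?_ ?_ ?_ ?_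
    · intro z _
      exact Finset.mem_univ _
    · intro z hz w hw hzw
      have e1 : z.1 = w.1 := by
        have := congrArg Subtype.val hzw
        have h3 : g * z.1 * g⁻¹ = g * w.1 * g⁻¹ := this
        exact mul_left_cancel (mul_right_cancel h3)
      have e2 : z.2 = w.2 := by
        have a1 := hfx z (Finset.mem_filter.1 hz).2
        have a2 := hfx w (Finset.mem_filter.1 hw).2
        apply (BrauerMap.cj g).injective
        rw [← a1, ← a2]
        congr 1
      cases z; cases w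
      simp only at e1 e2
      subst e1; subst e2
      rfl
    · intro x _
      have hx : PLE p (cg g (Subgroup.zpowers (g⁻¹ * (x : G) * g)), BrauerMap.cj g (BrauerMap.cj g⁻¹ (h.fx x)))
          (P, e) := by
        rw [BrauerMap.cj_cj_inv, cg_zpowers]
        have : g * (g⁻¹ * (x : G) * g) * g⁻¹ = x := by group
        rw [this]
        exact h.fx_spec x
      refine ⟨⟨g⁻¹ * (x : G) * g, BrauerMap.cj g⁻¹ (h.fx x)⟩, ?_, ?_⟩
      · rw [Finset.mem_filter, Finset.mem_sigma]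
        refine ⟨⟨?_, ?_⟩, hx⟩
        · rw [mem_PE]
          have : g⁻¹ * (x : G) * g = g⁻¹ * x * (g⁻¹)⁻¹ := by rw [inv_inv]
          rw [this, orderOf_conj]
          exact PE_of_mem h.pair.1 x.2
        · rw [mem_blks]
          have h3 : IsBlk (Cc (x : G)) (h.fx x) := ((h.fx_spec x).pair h.pair).2
          apply h3.cj
          intro y
          have : g⁻¹ * (x : G) * g = g⁻¹ * x * (g⁻¹)⁻¹ := by rw [inv_inv]
          show y ∈ Cc (g⁻¹ * (x : G) * g) ↔ _
          rw [this, mem_Cc_conj]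
      · apply Subtype.ext
        show g * (g⁻¹ * (x : G) * g) * g⁻¹ = x
        group
    · intro z hz
      rw [hfx z (Finset.mem_filter.1 hz).2]
      exact (hΘ g z.1 z.2).symm
  rw [Finset.sum_congr rfl (fun g _ => h2 g), Finset.sum_const, nsmul_eq_mul, Finset.card_univ,
    Nat.card_eq_fintype_card]

end Ctx

end Cfsg.Agent.Lib.H25BpS
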