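import Cfsg.Agent.Lib.H25BpN

/-!
# Inner products of star multiples in nilpotent blocks, II
-/

set_option autoImplicit false

namespace Cfsg.Agent.Lib.H25BpS

open Cfsg Cfsg.Agent.Lib.BlockRing Cfsg.Agent.Lib.BlockGA Cfsg.Agent.Lib.BlockAlg
open Cfsg.Agent.Lib.BlkIdem Cfsg.Agent.Lib.PairAlg Cfsg.Agent.Lib.PairMax
open Cfsg.Agent.Lib.BlockIdem Cfsg.Agent.Lib.BlockSecond Cfsg.Agent.Lib.BrauerPairs
open Cfsg.Agent.Lib.BlkFus Cfsg.Agent.Lib.InducedPair Cfsg.Agent.Lib.DefPairs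
open Cfsg.Agent.Lib.BlkFusDef
open Cfsg.Agent.Lib.H25BpLift Cfsg.Agent.Lib.H25BpTw Cfsg.Agent.Lib.H25BpF Cfsg.Agent.Lib.H25BpI
open Cfsg.Agent.Lib.H25BpE Cfsg.Agent.Lib.H25BpG Cfsg.Agent.Lib.H25BpW Cfsg.Agent.Lib.H25BpM
open Cfsg.Agent.Lib.BlockCount (Bl D rsp rsp_orth sum_blockPart)
open Cfsg.Agent.Lib.Subsec (Cz mem_Cz D_reg D_not_reg D_mem al al_eq al_mem fs mem_fs al_ne_zero al_ne_zero')
open Cfsg.Agent.Lib (BrauerMap.br BrauerMap.cj BrauerMap.fixAlg BrauerMap.suppAlg)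
open MonoidAlgebra (single)
open scoped ComplexConjugate Classical Pointwise

universe u

variable {p : ℕ} [hp : Fact p.Prime] {M : Ideal AlgInt} [hMm : M.IsMaximal] [hchar : CharP (Kf M) p]
  {G : Type u} [Group G] [Finite G] {B : Set (IrrCharacter G)} {P : Subgroup G} {e : MonoidAlgebra (Kf M) G}

/-- inner fusion -/
def Inn (p : ℕ) (P : Subgroup G) (e : MonoidAlgebra (Kf M) G) : Prop :=
  ∀ (Q : Subgroup G) (g : G), BHom p P e Q g → ∃ u ∈ P, u⁻¹ * g ∈ Subgroup.centralizer (Q : Set G)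

omit hp hchar in
/-- class functions are stable -/
theorem sta_of_class (hin : Inn p P e) {η : G → ℂ} (hη : IsClassFunction P (fun x : P => η x)) : Sta p P e η := by
  intro x g hg
  obtain ⟨y, hy, hyg⟩ := hin _ _ hg
  have hx : x ∈ P := hg.le (Subgroup.mem_zpowers x)
  rw [mem_cz] at hyg
  have h1 : g * x * g⁻¹ = y * x * y⁻¹ := by
    have h2 : x * (y⁻¹ * g) = y⁻¹ * g * x := hyg
    calc g * x * g⁻¹ = y * (y⁻¹ * g * x) * g⁻¹ := by group
      _ = y * (x * (y⁻¹ * g)) * g⁻¹ := by rw [h2]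
      _ = _ := by group
  rw [h1]
  exact hη ⟨x, hx⟩ ⟨y, hy⟩

omit hp hMm hchar in
theorem card_Cc (g u : G) : Nat.card (Cc (g * u * g⁻¹)) = Nat.card (Cc u) :=
  Nat.card_congr (conjIso g (mem_Cc_conj g u)).symm.toEquiv

omit hp hMm hchar in
theorem card_inf_conj {y u : G} (hy : y ∈ P) :
    Nat.card (P ⊓ Cc (y * u * y⁻¹) : Subgroup G) = Nat.card (P ⊓ Cc u : Subgroup G) := by
  have hK : ∀ g, g ∈ (P ⊓ Cc (y * u * y⁻¹) : Subgroup G) ↔ y⁻¹ * g * y ∈ (P ⊓ Cc u : Subgroup G) := by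
    intro g
    rw [Subgroup.mem_inf, Subgroup.mem_inf, mem_Cc_conj]
    refine and_congr_left fun _ => ?_
    constructor
    · intro hg
      exact P.mul_mem (P.mul_mem (P.inv_mem hy) hg) hy
    · intro hg
      have := P.mul_mem (P.mul_mem hy hg) (P.inv_mem hy)
      have e1 : y * (y⁻¹ * g * y) * y⁻¹ = g := by group
      rwa [e1] at this
  exact Nat.card_congr (conjIso y hK).symm.toEquiv

namespace Ctx

variable (h : Ctx p B P e)
include h

/-- number of conjugating elements -/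
theorem card_T (hin : Inn p P e) {u g₀ : G} {b : MonoidAlgebra (Kf M) G}
    (h0 : PLE p (cg g₀ (Subgroup.zpowers u), BrauerMap.cj g₀ b) (P, e)) :
    Nat.card {g : G // PLE p (cg g (Subgroup.zpowers u), BrauerMap.cj g b) (P, e)} *
      Nat.card (P ⊓ Cc (g₀ * u * g₀⁻¹) : Subgroup G) = Nat.card P * Nat.card (Cc u) := by
  set x := g₀ * u * g₀⁻¹ with hx
  set f := BrauerMap.cj g₀ b with hf
  have h1 : PLE p (Subgroup.zpowers x, f) (P, e) := by rw [cg_zpowers] at h0; exact h0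
  have hfb : IsBlk (Cc x) f := (h1.pair h.pair).2
  rw [← card_Cc g₀ u, ← hx, ← ConjSylow.card_mul_mul_card_inf P (Cc x)]
  congr 1
  have key : ∀ g : G, PLE p (cg g (Subgroup.zpowers u), BrauerMap.cj g b) (P, e) ↔
      g * g₀⁻¹ ∈ (P : Set G) * (Cc x : Set G) := by
    intro g
    have e1 : cg g (Subgroup.zpowers u) = cg (g * g₀⁻¹) (Subgroup.zpowers x) := by
      rw [hx, ← cg_zpowers, ← cg_mul, inv_mul_cancel_right]
    have e2 : BrauerMap.cj g b = BrauerMap.cj (g * g₀⁻¹) f := by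
      rw [hf, ← BrauerMap.cj_mul, inv_mul_cancel_right]
    rw [e1, e2]
    constructor
    · intro hg
      obtain ⟨y, hy, hyg⟩ := hin _ _ (⟨f, h1, hg⟩ : BHom p P e (Subgroup.zpowers x) (g * g₀⁻¹))
      exact ⟨y, hy, y⁻¹ * (g * g₀⁻¹), hyg, by group⟩
    · rintro ⟨y, hy, c, hc, hyc⟩
      rw [← hyc]
      show PLE p (cg (y * c) (Subgroup.zpowers x), BrauerMap.cj (y * c) f) (P, e)
      rw [cg_mul, BrauerMap.cj_mul, cg_of_mem_centralizer hc, hfb.mem.2 c hc]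
      have hh : BHom p P e (Subgroup.zpowers x) y := BHom.of_mem hasBlocks h.pair h1.le hy
      exact hh.of_pair hasBlocks h.pair h1
  apply Nat.card_congr
  exact {
    toFun := fun g => ⟨g.1 * g₀⁻¹, (key g.1).1 g.2⟩
    invFun := fun z => ⟨z.1 * g₀, (key _).2 (by rw [mul_inv_cancel_right]; exact z.2)⟩
    left_inv := fun g => Subtype.ext (by simp)
    right_inv := fun z => Subtype.ext (by simp) }

/-- the sum over Brauer elements as a sum over the defect group -/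
theorem sum_nil (hin : Inn p P e) [Fintype P] (Ξ : G → MonoidAlgebra (Kf M) G → ℂ)
    (hΞ : ∀ g u b, Ξ (g * u * g⁻¹) (BrauerMap.cj g b) = Ξ u b)
    (hz : ∀ u b, (∀ g, ¬ PLE p (cg g (Subgroup.zpowers u), BrauerMap.cj g b) (P, e)) → Ξ u b = 0) :
    (Nat.card G : ℂ)⁻¹ * ∑ u ∈ PE p G, (Nat.card (Cc u) : ℂ) * ∑ b ∈ blks M (Cc u), Ξ u b =
      (Nat.card P : ℂ)⁻¹ * ∑ x : P, (Nat.card (P ⊓ Cc (x : G) : Subgroup G) : ℂ) * Ξ x (h.fx x) := by
  let c : G → ℂ := fun x => (Nat.card (P ⊓ Cc x : Subgroup G) : ℂ)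
  have hc : Sta p P e c := by
    apply sta_of_class hin
    intro x y
    show (Nat.card (P ⊓ Cc ((y : G) * x * (y : G)⁻¹) : Subgroup G) : ℂ) = _
    rw [card_inf_conj y.2]
  have h1 := h.sum_pairs (fun u b => Ξ u b * Wt p P e c u b) (fun g u b => by
    rw [hΞ, Wt_conj hc])
  have hG : (Nat.card G : ℂ) ≠ 0 := by exact_mod_cast Nat.card_pos.ne'
  have hP : (Nat.card P : ℂ) ≠ 0 := by exact_mod_cast Nat.card_pos.ne'
  have h2 : ∑ x : P, Ξ x (h.fx x) * Wt p P e c x (h.fx x) =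
      ∑ x : P, (Nat.card (P ⊓ Cc (x : G) : Subgroup G) : ℂ) * Ξ x (h.fx x) := by
    refine Finset.sum_congr rfl fun x _ => ?_
    rw [Wt_self hc (h.fx_spec x), mul_comm]
  have h3 : ∑ u ∈ PE p G, ∑ b ∈ blks M (Cc u),
      (Nat.card {g : G // PLE p (cg g (Subgroup.zpowers u), BrauerMap.cj g b) (P, e)} : ℂ) *
        (Ξ u b * Wt p P e c u b) =
      (Nat.card P : ℂ) * ∑ u ∈ PE p G, (Nat.card (Cc u) : ℂ) * ∑ b ∈ blks M (Cc u), Ξ u b := by
    rw [Finset.mul_sum]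
    refine Finset.sum_congr rfl fun u _ => ?_
    rw [← mul_assoc, Finset.mul_sum]
    refine Finset.sum_congr rfl fun b _ => ?_
    by_cases hex : ∃ g, PLE p (cg g (Subgroup.zpowers u), BrauerMap.cj g b) (P, e)
    · obtain ⟨g₀, hg₀⟩ := hex
      have h4 := h.card_T hin hg₀
      rw [Wt_eq hc hg₀]
      have h5 : (Nat.card {g : G // PLE p (cg g (Subgroup.zpowers u), BrauerMap.cj g b) (P, e)} : ℂ) *
          c (g₀ * u * g₀⁻¹) = (Nat.card P : ℂ) * Nat.card (Cc u) := by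
        show (Nat.card {g : G // PLE p (cg g (Subgroup.zpowers u), BrauerMap.cj g b) (P, e)} : ℂ) *
          (Nat.card (P ⊓ Cc (g₀ * u * g₀⁻¹) : Subgroup G) : ℂ) = _
        rw [← Nat.cast_mul, h4, Nat.cast_mul]
      rw [← h5]
      ring
    · rw [hz u b (fun g hg => hex ⟨g, hg⟩), zero_mul, mul_zero, mul_zero]
  rw [h2, h3] at h1
  rw [inv_mul_eq_iff_eq_mul₀ hG, mul_left_comm, ← h1, inv_mul_cancel_left₀ hP]

/-- inner products of star multiples in a nilpotent block -/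
theorem inner_nil (hin : Inn p P e) [Fintype G] [Fintype P] {η η' : G → ℂ} (hη : Sta p P e η) (hη' : Sta p P e η')
    (χ ψ : IrrCharacter G) :
    classInner (st p P e η (χ : G → ℂ)) (st p P e η' (ψ : G → ℂ)) =
      (Nat.card P : ℂ)⁻¹ * ∑ x : P, η x * conj (η' x) *
        ((Nat.card (P ⊓ Cc (x : G) : Subgroup G) : ℂ) * CI p (χ : G → ℂ) (ψ : G → ℂ) x (h.fx x)) := by
  let Ξ : G → MonoidAlgebra (Kf M) G → ℂ := fun u b =>
    Wt p P e η u b * conj (Wt p P e η' u b) * CI p (χ : G → ℂ) (ψ : G → ℂ) u b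
  have h1 := h.sum_nil hin Ξ (fun g u b => by
    simp only [Ξ]
    rw [Wt_conj hη, Wt_conj hη', CI_conj χ.2.isClassFunction ψ.2.isClassFunction])
    (fun u b hb => by
      simp only [Ξ]
      rw [Wt_eq_zero hb, zero_mul, zero_mul])
  unfold st
  rw [inner_F χ.2.isClassFunction ψ.2.isClassFunction]
  have h2 : ∑ u ∈ PE p G, (Nat.card (Cz u) : ℂ) * classInner (sec p M (Wt p P e η) (χ : G → ℂ) u)
      (sec p M (Wt p P e η') (ψ : G → ℂ) u) =
      ∑ u ∈ PE p G, (Nat.card (Cc u) : ℂ) * ∑ b ∈ blks M (Cc u), Ξ u b := by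
    refine Finset.sum_congr rfl fun u _ => ?_
    have := Fintype.ofFinite (Bl M (Cz u))
    have h3 : (Nat.card (Cz u) : ℂ) = (Nat.card (Cc u) : ℂ) := by rw [Cz_eq_Cc]
    have h4 : ∑ b ∈ blks M (Cc u), Ξ u b = ∑ b : Bl M (Cz u), Ξ u (bid M (Cz u) b.1) := by
      rw [← finsum_eq_sum_of_fintype]
      exact (sum_Bl_eq u (fun b => Ξ u b)).symm
    have h5 : ∀ b : Bl M (Cz u), Ξ u (bid M (Cz u) b.1) =
        Wt p P e η u (bid M (Cz u) b.1) * conj (Wt p P e η' u (bid M (Cz u) b.1)) *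
        classInner (D p u b.1 (χ : G → ℂ)) (D p u b.1 (ψ : G → ℂ)) := by
      intro b
      show Wt p P e η u (bid M (Cz u) b.1) * conj (Wt p P e η' u (bid M (Cz u) b.1)) *
        CI p (χ : G → ℂ) (ψ : G → ℂ) u (bid M (Cz u) b.1) = _
      rw [CI_eq]
    rw [inner_sec h.mod, h3, h4, Finset.sum_congr rfl (fun b _ => h5 b)]
  rw [h2, h1]
  congr 1
  refine Finset.sum_congr rfl fun x _ => ?_
  simp only [Ξ]
  rw [Wt_self hη (h.fx_spec x), Wt_self hη' (h.fx_spec x)]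
  ring

/-- the weights are the contributions of the subsections -/
theorem weight_eq (hin : Inn p P e) (χ ψ : G → ℂ) (x : P) :
    ∃ b : Bl M (Cz (x : G)), PLE p (Subgroup.zpowers (x : G), bid M (Cz (x : G)) b.1) (P, e) ∧
      (Nat.card (P ⊓ Cc (x : G) : Subgroup G) : ℂ) * CI p χ ψ x (h.fx x) = al p (x : G) b.1 χ ψ := by
  have := Fintype.ofFinite G
  have := Fintype.ofFinite (Cz (x : G))
  obtain ⟨b, hb⟩ := h.ple_bl x.2
  refine ⟨b, hb, ?_⟩
  have h1 := h.defect_bl b hb (fun g hg => by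
    obtain ⟨y, hy, hyg⟩ := hin _ _ hg
    rw [mem_cz] at hyg
    have h2 : g * (x : G) * g⁻¹ = y * x * y⁻¹ := by
      have h2 : (x : G) * (y⁻¹ * g) = y⁻¹ * g * x := hyg
      calc g * (x : G) * g⁻¹ = y * (y⁻¹ * g * x) * g⁻¹ := by group
        _ = y * (x * (y⁻¹ * g)) * g⁻¹ := by rw [h2]
        _ = _ := by group
    rw [h2, card_inf_conj hy])
  rw [h.fx_eq hb, CI_eq, ← h1, al_eq]
  push_cast
  rfl

end Ctx

end Cfsg.Agent.Lib.H25BpS
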