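import Cfsg.Agent.Lib.H25BpZ

/-!
# The bijection between characters of a defect group and of a nilpotent block
-/

set_option autoImplicit false

namespace Cfsg.Agent.Lib.H25BpS

open Cfsg Cfsg.Agent.Lib.BlockRing Cfsg.Agent.Lib.BlockGA Cfsg.Agent.Lib.BlockAlg
open Cfsg.Agent.Lib.BlkIdem Cfsg.Agent.Lib.PairAlg Cfsg.Agent.Lib.PairMax
open Cfsg.Agent.Lib.BlockIdem Cfsg.Agent.Lib.BlockSecond Cfsg.Agent.Lib.BrauerPairs
open Cfsg.Agent.Lib.BlkFus Cfsg.Agent.Lib.InducedPair Cfsg.Agent.Lib.DefPairs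
open Cfsg.Agent.Lib.BlkFusDef Cfsg.Agent.Lib.CycAvg Cfsg.Agent.Lib.BlockDeg
open Cfsg.Agent.Lib.H25BpTw Cfsg.Agent.Lib.H25BpW
open Cfsg.Agent.Lib.BlockCount (Bl D rsp rsp_orth sum_blockPart blockRank_eq)
open Cfsg.Agent.Lib.BlockPair (preg)
open Cfsg.Agent.Lib.Subsec (Cz mem_Cz al al_eq al_mem fs mem_fs al_ne_zero al_conj height_add)
open scoped ComplexConjugate Classical Pointwise

universe u

variable {p : ℕ} [hp : Fact p.Prime] {M : Ideal AlgInt} [hMm : M.IsMaximal] [hchar : CharP (Kf M) p]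
  {G : Type u} [Group G] [Finite G] {B : Set (IrrCharacter G)} {P : Subgroup G} {e : MonoidAlgebra (Kf M) G}

namespace Ctx

variable (h : Ctx p B P e)
include h

omit hp hMm hchar h [Finite G] in
theorem _root_.Cfsg.Agent.Lib.H25BpS.ext_res (θ : P → ℂ) : (fun x : P => extendByZero P θ (x : G)) = θ :=
  funext fun x => IndFun.extendByZero_coe P θ x

/-- the star multiple by an irreducible character of the defect group -/
theorem exists_star (hin : Inn p P e) {χ : IrrCharacter G} (hχ : χ ∈ B)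
    (h0 : blockHeight p B (χ : G → ℂ) = 0) (θ : IrrCharacter P) :
    ∃ ψ : IrrCharacter G, ψ ∈ B ∧ (ψ : G → ℂ) = st p P e (extendByZero P (θ : P → ℂ)) (χ : G → ℂ) := by
  have := Fintype.ofFinite G
  have := Fintype.ofFinite P
  set η : G → ℂ := extendByZero P (θ : P → ℂ) with hη
  have hres : (fun x : P => η (x : G)) = (θ : P → ℂ) := ext_res _
  have hcl : IsClassFunction P (fun x : P => η x) := by rw [hres]; exact θ.2.isClassFunction
  have hsta := sta_of_class hin hcl
  have hirr : IsIrrCharacter G (st p P e η (χ : G → ℂ)) := by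
    apply (h.st_gen hsta (by rw [hres]; exact θ.2.isGeneralized) χ).irr_of_norm_one
    · rw [h.inner_star hin hχ h0 hcl hcl, hres, θ.2.classInner_self]
    · rw [h.st_one_val hsta hχ]
      have h1 : η 1 = (θ : P → ℂ) 1 := congrFun hres 1
      obtain ⟨n, hn⟩ := IsCharacter.exists_degree χ.2.isCharacter
      obtain ⟨m, hm⟩ := IsCharacter.exists_degree θ.2.isCharacter
      rw [h1, hn, hm, ← Nat.cast_mul, Complex.natCast_re]
      positivity
  refine ⟨⟨_, hirr⟩, ?_, rfl⟩
  by_contra hcon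
  have h3 := h.st_orth (η := η) hχ hcon
  have h4 := hirr.classInner_self
  rw [show ((⟨st p P e η (χ : G → ℂ), hirr⟩ : IrrCharacter G) : G → ℂ) = st p P e η (χ : G → ℂ) from rfl,
    h4] at h3
  exact one_ne_zero h3

/-- the star map -/
noncomputable def star (hin : Inn p P e) {χ : IrrCharacter G} (hχ : χ ∈ B)
    (h0 : blockHeight p B (χ : G → ℂ) = 0) (θ : IrrCharacter P) : B :=
  ⟨(h.exists_star hin hχ h0 θ).choose, (h.exists_star hin hχ h0 θ).choose_spec.1⟩

theorem star_coe (hin : Inn p P e) {χ : IrrCharacter G} (hχ : χ ∈ B)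
    (h0 : blockHeight p B (χ : G → ℂ) = 0) (θ : IrrCharacter P) :
    ((h.star hin hχ h0 θ : IrrCharacter G) : G → ℂ) = st p P e (extendByZero P (θ : P → ℂ)) (χ : G → ℂ) :=
  (h.exists_star hin hχ h0 θ).choose_spec.2

omit hp hMm hchar h in
theorem _root_.Cfsg.Agent.Lib.H25BpS.ext_class (θ : IrrCharacter P) :
    IsClassFunction P (fun x : P => extendByZero P (θ : P → ℂ) (x : G)) := by
  rw [ext_res]; exact θ.2.isClassFunction

theorem star_inj (hin : Inn p P e) {χ : IrrCharacter G} (hχ : χ ∈ B)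
    (h0 : blockHeight p B (χ : G → ℂ) = 0) : Function.Injective (h.star hin hχ h0) := by
  have := Fintype.ofFinite G
  have := Fintype.ofFinite P
  intro θ θ' hθ
  by_contra hne
  have h1 := h.inner_star hin hχ h0 (ext_class θ) (ext_class θ')
  rw [ext_res, ext_res, ← h.star_coe hin hχ h0 θ, ← h.star_coe hin hχ h0 θ', hθ,
    (h.star hin hχ h0 θ').1.2.classInner_self,
    θ.2.classInner_eq_zero θ'.2 (fun h => hne (Subtype.ext h))] at h1
  exact one_ne_zero h1

theorem star_surj (hin : Inn p P e) {χ : IrrCharacter G} (hχ : χ ∈ B)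
    (h0 : blockHeight p B (χ : G → ℂ) = 0) : Function.Surjective (h.star hin hχ h0) := by
  have := Fintype.ofFinite G
  have := Fintype.ofFinite P
  rintro ⟨ψ, hψ⟩
  by_contra hcon
  push Not at hcon
  let A : P → ℂ := fun x => (Nat.card (P ⊓ Cc (x : G) : Subgroup G) : ℂ) *
    CI p (χ : G → ℂ) (ψ : G → ℂ) x (h.fx x)
  have hA : IsClassFunction P A := by
    intro x y
    have h1 : h.fx (y * x * y⁻¹) = BrauerMap.cj (y : G) (h.fx x) := by
      apply h.fx_eq
      have h2 : BHom p P e (Subgroup.zpowers (x : G)) (y : G) :=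
        BHom.of_mem hasBlocks h.pair (h.fx_spec x).le y.2
      have h3 := h2.of_pair hasBlocks h.pair (h.fx_spec x)
      rw [cg_zpowers] at h3
      exact h3
    show (Nat.card (P ⊓ Cc ((y : G) * x * (y : G)⁻¹) : Subgroup G) : ℂ) *
      CI p (χ : G → ℂ) (ψ : G → ℂ) ((y : G) * x * (y : G)⁻¹) (h.fx (y * x * y⁻¹)) = _
    rw [card_inf_conj y.2, h1, CI_conj χ.2.isClassFunction ψ.2.isClassFunction]
  have hone : Sta p P e (fun _ => (1 : ℂ)) := fun _ _ _ => rfl
  have horth : ∀ θ : P → ℂ, IsIrrCharacter P θ → classInner (fun x => conj (A x)) θ = 0 := by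
    intro θ' hθ'
    obtain ⟨θ, rfl⟩ : ∃ θ : IrrCharacter P, (θ : P → ℂ) = θ' := ⟨⟨θ', hθ'⟩, rfl⟩
    have h1 := h.inner_nil hin (sta_of_class hin (ext_class θ)) hone χ ψ
    rw [h.st_trivial hone (fun _ _ => rfl) hψ, ← h.star_coe hin hχ h0 θ] at h1
    have h2 : ((h.star hin hχ h0 θ : IrrCharacter G) : G → ℂ) ≠ (ψ : G → ℂ) := fun hh =>
      hcon θ (Subtype.ext (Subtype.ext hh))
    rw [(h.star hin hχ h0 θ).1.2.classInner_eq_zero ψ.2 h2] at h1
    rw [← IndFun.classInner_conj_symm]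
    have h3 : classInner (θ : P → ℂ) (fun x => conj (A x)) = 0 := by
      rw [h1]
      unfold classInner
      congr 1
      refine Finset.sum_congr rfl fun x _ => ?_
      rw [IndFun.extendByZero_coe]
      simp only [A, map_one, mul_one, Complex.conj_conj]
    rw [h3, map_zero]
  have hcA : IsClassFunction P (fun x => conj (A x)) := by
    intro x y
    show conj (A (y * x * y⁻¹)) = conj (A x)
    rw [hA x y]
  have h4 := congrFun (hcA.eq_zero_of_orthogonal horth) 1
  have h5 : A 1 = 0 := by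
    have : conj (A 1) = 0 := h4
    exact (map_eq_zero _).1 this
  obtain ⟨b, hb, hal⟩ := h.weight_eq hin (χ : G → ℂ) (ψ : G → ℂ) 1
  obtain ⟨k, hk⟩ := PE_of_mem (p := p) h.pair.1 (P.one_mem)
  have : NeZero (p ^ (k + 1)) := ⟨pow_ne_zero _ hp.out.ne_zero⟩
  have h6 := al_ne_zero h.mod hk (h.ind_self P.one_mem b hb)
    (h.defect_center P.one_mem (Subgroup.one_mem _) b hb) hψ hχ h0
  apply h6
  have h7 : al p (((1 : P) : G)) b.1 (χ : G → ℂ) (ψ : G → ℂ) = 0 := by rw [← hal]; exact h5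
  have h8 := al_conj (p := p) (((1 : P) : G)) b.1 (χ : G → ℂ) (ψ : G → ℂ)
  rw [h7, map_zero] at h8
  exact h8.symm

/-- degrees -/
theorem star_deg (hin : Inn p P e) {χ : IrrCharacter G} (hχ : χ ∈ B)
    (h0 : blockHeight p B (χ : G → ℂ) = 0) (θ : IrrCharacter P) :
    charDegree ((h.star hin hχ h0 θ : IrrCharacter G) : G → ℂ) =
      charDegree (θ : P → ℂ) * charDegree (χ : G → ℂ) := by
  have h1 := h.st_one_val (sta_of_class hin (ext_class θ)) hχ
  rw [← h.star_coe hin hχ h0 θ] at h1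
  have h2 : extendByZero P (θ : P → ℂ) 1 = (θ : P → ℂ) 1 := congrFun (ext_res (θ : P → ℂ)) 1
  rw [h2, ← charDegree_cast_irr, ← charDegree_cast_irr, ← charDegree_cast_irr, ← Nat.cast_mul] at h1
  exact_mod_cast h1

theorem star_height (hin : Inn p P e) {χ : IrrCharacter G} (hχ : χ ∈ B)
    (h0 : blockHeight p B (χ : G → ℂ) = 0) (θ : IrrCharacter P) :
    blockHeight p B ((h.star hin hχ h0 θ : IrrCharacter G) : G → ℂ) =
      (charDegree (θ : P → ℂ)).factorization p := by
  have h1 := height_add (p := p) hp.out (h.star hin hχ h0 θ).2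
  have h2 := height_add (p := p) hp.out hχ
  rw [h0, zero_add] at h2
  rw [h2] at h1
  unfold nuDeg at h1
  rw [h.star_deg hin hχ h0 θ, Nat.factorization_mul (charDegree_pos θ.2).ne' (charDegree_pos χ.2).ne',
    Finsupp.add_apply] at h1
  omega

/-- values at p-regular elements -/
theorem star_reg (hin : Inn p P e) {χ : IrrCharacter G} (hχ : χ ∈ B)
    (h0 : blockHeight p B (χ : G → ℂ) = 0) (θ : IrrCharacter P) {g : G} (hg : ¬ p ∣ orderOf g) :
    ((h.star hin hχ h0 θ : IrrCharacter G) : G → ℂ) g = (charDegree (θ : P → ℂ) : ℂ) * (χ : G → ℂ) g := by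
  rw [h.star_coe hin hχ h0 θ, h.st_reg (sta_of_class hin (ext_class θ)) hχ hg]
  congr 1
  have h2 : extendByZero P (θ : P → ℂ) 1 = (θ : P → ℂ) 1 := congrFun (ext_res (θ : P → ℂ)) 1
  rw [h2, charDegree_cast_irr]

/-- the decomposition numbers of a nilpotent block -/
theorem nil_rank (hin : Inn p P e) : blockRank p B = 1 ∧ ∃ χ₀ ∈ B, ∀ χ ∈ B, ∃ d : ℕ, ∀ x : G,
    pRegularPart p (χ : G → ℂ) x = (d : ℂ) * pRegularPart p (χ₀ : G → ℂ) x := by
  obtain ⟨χ, hχ, h0⟩ := BlockDeg.exists_height_zero (p := p) (isPBlock_nonempty h.blk)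
  have key : ∀ ψ ∈ B, ∃ d : ℕ, ∀ x : G,
      pRegularPart p (ψ : G → ℂ) x = (d : ℂ) * pRegularPart p (χ : G → ℂ) x := by
    intro ψ hψ
    obtain ⟨θ, hθ⟩ := h.star_surj hin hχ h0 ⟨ψ, hψ⟩
    refine ⟨charDegree (θ : P → ℂ), fun x => ?_⟩
    rw [BlockCount.pRegularPart_eq, BlockCount.pRegularPart_eq]
    unfold preg
    split_ifs with hx
    · rw [mul_zero]
    · have := h.star_reg hin hχ h0 θ hx
      rw [hθ] at this
      exact this
  refine ⟨?_, χ, hχ, key⟩
  rw [blockRank_eq]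
  have hspan : rsp p B = Submodule.span ℂ {preg p (χ : G → ℂ)} := by
    apply le_antisymm
    · apply Submodule.span_le.2
      rintro _ ⟨ψ, hψ, rfl⟩
      obtain ⟨d, hd⟩ := key ψ hψ
      have : preg p (ψ : G → ℂ) = (d : ℂ) • preg p (χ : G → ℂ) := by
        funext x
        have := hd x
        rw [BlockCount.pRegularPart_eq, BlockCount.pRegularPart_eq] at this
        exact this
      show preg p (ψ : G → ℂ) ∈ _
      rw [this]
      exact Submodule.smul_mem _ _ (Submodule.mem_span_singleton_self _)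
    · apply Submodule.span_mono
      rw [Set.singleton_subset_iff]
      exact ⟨χ, hχ, rfl⟩
  rw [hspan]
  apply finrank_span_singleton
  intro hz
  have h1 := congrFun hz 1
  unfold preg at h1
  rw [if_neg (by rw [orderOf_one]; exact hp.out.one_lt.not_ge ∘ Nat.le_of_dvd one_pos)] at h1
  exact χ.2.one_ne_zero h1

end Ctx

end Cfsg.Agent.Lib.H25BpS
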