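import Cfsg.Agent.Lib.H25BpN2

/-!
# Characters of nilpotent blocks (Broue-Puig)
-/

set_option autoImplicit false

namespace Cfsg.Agent.Lib.H25BpS

open Cfsg Cfsg.Agent.Lib.BlockRing Cfsg.Agent.Lib.BlockGA Cfsg.Agent.Lib.BlockAlg
open Cfsg.Agent.Lib.BlkIdem Cfsg.Agent.Lib.PairAlg Cfsg.Agent.Lib.PairMax
open Cfsg.Agent.Lib.BlockIdem Cfsg.Agent.Lib.BlockSecond Cfsg.Agent.Lib.BrauerPairs
open Cfsg.Agent.Lib.BlkFus Cfsg.Agent.Lib.InducedPair Cfsg.Agent.Lib.DefPairs
open Cfsg.Agent.Lib.BlkFusDef Cfsg.Agent.Lib.CycAvg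
open Cfsg.Agent.Lib.H25BpTw Cfsg.Agent.Lib.H25BpW
open Cfsg.Agent.Lib.BlockCount (Bl D rsp rsp_orth sum_blockPart blockRank_eq)
open Cfsg.Agent.Lib.BlockPair (preg)
open Cfsg.Agent.Lib.Subsec (Cz mem_Cz D_reg D_not_reg D_mem al al_eq al_mem fs mem_fs al_ne_zero al_ne_zero'
  al_idem al_conj)
open scoped ComplexConjugate Classical Pointwise

universe u

/-- equality in the arithmetic-geometric mean inequality for conjugates -/
theorem eq_one_of_av {N : ℕ} [NeZero N] {x : ℂ} (hx : x ∈ Z N)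
    (hpos : ∀ u : (ZMod N)ˣ, ∃ r : ℝ, 0 < r ∧ sig N u x = (r : ℂ)) (hav : av N x = 1) : x = 1 := by
  choose r hr0 hr using hpos
  obtain ⟨m, hm⟩ := prod_int hx
  have h1 : (m : ℝ) = ∏ u : (ZMod N)ˣ, r u := by
    have h2 : ((∏ u : (ZMod N)ˣ, r u : ℝ) : ℂ) = (m : ℂ) := by
      rw [← hm]
      push_cast
      exact Finset.prod_congr rfl fun u _ => (hr u).symm
    have h3 : ((∏ u : (ZMod N)ˣ, r u : ℝ) : ℂ) = ((m : ℝ) : ℂ) := by rw [h2]; push_cast; rfl
    exact (Complex.ofReal_injective h3).symm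
  have hpos : 0 < ∏ u : (ZMod N)ˣ, r u := Finset.prod_pos fun u _ => hr0 u
  have hm1 : (1 : ℝ) ≤ ∏ u : (ZMod N)ˣ, r u := by
    rw [← h1] at hpos ⊢
    have : 0 < m := by exact_mod_cast hpos
    exact_mod_cast this
  have hlog : 0 ≤ ∑ u : (ZMod N)ˣ, Real.log (r u) := by
    rw [← Real.log_prod (fun u _ => (hr0 u).ne')]
    exact Real.log_nonneg hm1
  have hsum : ∑ u : (ZMod N)ˣ, r u = phi N := by
    have h4 : (∑ u : (ZMod N)ˣ, sig N u x) = (phi N : ℂ) := by
      have h5 := hav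
      unfold av at h5
      rwa [div_eq_one_iff_eq phi_ne] at h5
    have h6 : ((∑ u : (ZMod N)ˣ, r u : ℝ) : ℂ) = (phi N : ℂ) := by
      rw [← h4]
      push_cast
      exact Finset.sum_congr rfl fun u _ => (hr u).symm
    exact Complex.ofReal_injective h6
  have hle : ∀ u ∈ (Finset.univ : Finset (ZMod N)ˣ), 0 ≤ r u - 1 - Real.log (r u) := fun u _ => by
    have := Real.log_le_sub_one_of_pos (hr0 u)
    linarith
  have hz : ∑ u : (ZMod N)ˣ, (r u - 1 - Real.log (r u)) = 0 := by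
    apply le_antisymm _ (Finset.sum_nonneg hle)
    rw [Finset.sum_sub_distrib, Finset.sum_sub_distrib, hsum, Finset.sum_const, Finset.card_univ, nsmul_eq_mul,
      mul_one]
    have : phi N = (Fintype.card (ZMod N)ˣ : ℝ) := rfl
    rw [this]
    linarith
  have h7 := (Finset.sum_eq_zero_iff_of_nonneg hle).1 hz 1 (Finset.mem_univ _)
  have h8 : r 1 = 1 := by
    by_contra hne
    have := Real.log_lt_sub_one_of_pos (hr0 1) hne
    linarith
  have h9 : sig N 1 x = sig N 1 1 := by rw [hr 1, h8, map_one]; simp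
  exact (sig N 1).injective h9

variable {p : ℕ} [hp : Fact p.Prime] {M : Ideal AlgInt} [hMm : M.IsMaximal] [hchar : CharP (Kf M) p]
  {G : Type u} [Group G] [Finite G] {B : Set (IrrCharacter G)} {P : Subgroup G} {e : MonoidAlgebra (Kf M) G}

namespace Ctx

variable (h : Ctx p B P e)
include h

/-- contributions of a character of height zero in a nilpotent block -/
theorem weight_one (hin : Inn p P e) {χ : IrrCharacter G} (hχ : χ ∈ B)
    (h0 : blockHeight p B (χ : G → ℂ) = 0) (x : P) :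
    (Nat.card (P ⊓ Cc (x : G) : Subgroup G) : ℂ) * CI p (χ : G → ℂ) (χ : G → ℂ) x (h.fx x) = 1 := by
  have := Fintype.ofFinite G
  have := Fintype.ofFinite P
  have hM := h.mod
  set n := blockDefect p B with hn
  have : NeZero (p ^ (n + 1)) := ⟨pow_ne_zero _ hp.out.ne_zero⟩
  set N := p ^ (n + 1) with hN
  let A : P → ℂ := fun x => (Nat.card (P ⊓ Cc (x : G) : Subgroup G) : ℂ) *
    CI p (χ : G → ℂ) (χ : G → ℂ) x (h.fx x)
  have hxN : ∀ x : P, (x : G) ^ N = 1 := by
    intro x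
    have h1 : x ^ Nat.card P = 1 := pow_card_eq_one'
    rw [h.card_P] at h1
    have h2 : (x : G) ^ p ^ n = 1 := congrArg Subtype.val h1
    rw [hN, pow_succ, pow_mul, h2, one_pow]
  have hdata : ∀ x : P, A x ∈ Z N ∧ ∀ u : (ZMod N)ˣ, ∃ r : ℝ, 0 < r ∧ sig N u (A x) = (r : ℂ) := by
    intro x
    obtain ⟨b, hb, hal⟩ := h.weight_eq hin (χ : G → ℂ) (χ : G → ℂ) x
    have hind := h.ind_self x.2 b hb
    obtain ⟨k, hk⟩ := PE_of_mem (p := p) h.pair.1 x.2
    have : NeZero (p ^ (k + 1)) := ⟨pow_ne_zero _ hp.out.ne_zero⟩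
    have hne := al_ne_zero' hM hk hind hχ hχ h0 h0
    have hmem : ∀ ψ : IrrCharacter G, al p (x : G) b.1 (χ : G → ℂ) (ψ : G → ℂ) ∈ Z N := fun ψ =>
      al_mem hM (hxN x) b.2 χ ψ
    show (A x) ∈ Z N ∧ _
    have hA : A x = al p (x : G) b.1 (χ : G → ℂ) (χ : G → ℂ) := hal
    rw [hA]
    refine ⟨hmem χ, ?_⟩
    intro u
    have hp0 : (p : ℂ) ≠ 0 := by exact_mod_cast hp.out.ne_zero
    refine ⟨(∑ ψ ∈ fs B, ‖sig N u (al p (x : G) b.1 (χ : G → ℂ) (ψ : G → ℂ))‖ ^ 2) /
      (p : ℝ) ^ blockDefect p b.1, ?_, ?_⟩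
    · apply div_pos
      · refine lt_of_lt_of_le ?_ (Finset.single_le_sum (f := fun ψ : IrrCharacter G =>
          ‖sig N u (al p (x : G) b.1 (χ : G → ℂ) (ψ : G → ℂ))‖ ^ 2) (fun ψ _ => by positivity) (mem_fs.2 hχ))
        have := norm_pos_iff.2 (sig_ne_zero u hne)
        positivity
      · have : (0 : ℝ) < p := by exact_mod_cast hp.out.pos
        positivity
    · have h1 := congrArg (sig N u) (al_idem hM hk hind (χ : G → ℂ) (χ : G → ℂ))
      rw [map_sum, map_mul, map_pow, map_natCast] at h1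
      push_cast
      rw [eq_div_iff (pow_ne_zero _ hp0), mul_comm, ← h1]
      refine Finset.sum_congr rfl fun ψ _ => ?_
      rw [← al_conj (x : G) b.1 (χ : G → ℂ) (ψ : G → ℂ), map_mul, sig_conj u (hmem ψ), Complex.mul_conj,
        Complex.normSq_eq_norm_sq]
      push_cast
      rfl
  have hsum : ∑ x : P, A x = (Nat.card P : ℂ) := by
    have h1 : Sta p P e (fun _ => (1 : ℂ)) := fun _ _ _ => rfl
    have h2 := h.inner_nil hin h1 h1 χ χ
    rw [h.st_trivial h1 (fun _ _ => rfl) hχ, χ.2.classInner_self] at h2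
    simp only [map_one, one_mul] at h2
    have hP : (Nat.card P : ℂ) ≠ 0 := by exact_mod_cast Nat.card_pos.ne'
    rw [eq_inv_mul_iff_mul_eq₀ hP, mul_one] at h2
    exact h2.symm
  have hav : ∀ x : P, ∃ a : ℝ, av N (A x) = (a : ℂ) ∧ 1 ≤ a := fun x => one_le_av_of_pos (hdata x).1 (hdata x).2
  choose a ha ha1 using hav
  have hasum : ∑ x : P, a x = (Nat.card P : ℝ) := by
    have h3 := congrArg (av N) hsum
    rw [av_sum, av_natCast] at h3
    have h4 : ((∑ x : P, a x : ℝ) : ℂ) = ((Nat.card P : ℝ) : ℂ) := by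
      push_cast
      rw [← h3]
      exact Finset.sum_congr rfl fun x _ => (ha x).symm
    exact Complex.ofReal_injective h4
  have hz : ∑ x : P, (a x - 1) = 0 := by
    rw [Finset.sum_sub_distrib, hasum, Finset.sum_const, Finset.card_univ, nsmul_eq_mul, mul_one,
      Nat.card_eq_fintype_card, sub_self]
  have h5 := (Finset.sum_eq_zero_iff_of_nonneg (fun x _ => sub_nonneg.2 (ha1 x))).1 hz x (Finset.mem_univ _)
  apply eq_one_of_av (hdata x).1 (hdata x).2
  rw [ha x, sub_eq_zero.1 h5]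
  simp

/-- star multiplication by characters of `P` of a fixed character of height zero is isometric -/
theorem inner_star (hin : Inn p P e) [Fintype G] [Fintype P] {χ : IrrCharacter G} (hχ : χ ∈ B)
    (h0 : blockHeight p B (χ : G → ℂ) = 0) {η η' : G → ℂ} (hη : IsClassFunction P (fun x : P => η x))
    (hη' : IsClassFunction P (fun x : P => η' x)) :
    classInner (st p P e η (χ : G → ℂ)) (st p P e η' (χ : G → ℂ)) =
      classInner (fun x : P => η x) (fun x : P => η' x) := by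
  rw [h.inner_nil hin (sta_of_class hin hη) (sta_of_class hin hη') χ χ]
  unfold classInner
  congr 1
  refine Finset.sum_congr rfl fun x _ => ?_
  rw [h.weight_one hin hχ h0 x, mul_one]

end Ctx

end Cfsg.Agent.Lib.H25BpS
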