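import Cfsg.Agent.Lib.H25Inv

set_option autoImplicit false

/-!
# A central extension built from two homomorphisms of a Sylow subgroup (helper25)
-/

namespace Cfsg.Agent.Lib.H25Ext

open Subgroup Cfsg.Agent.Lib.H25Inv

universe u v

/-- a normalised 2-cocycle with trivial action -/
structure Coc (G : Type u) [Group G] (A : Type v) [AddCommGroup A] where
  F : G → G → A
  coc : ∀ x y z, F x y + F (x * y) z = F x (y * z) + F y z
  one_left : ∀ x, F 1 x = 0
  one_right : ∀ x, F x 1 = 0

/-- the extension defined by a cocycle -/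
structure Ext {G : Type u} [Group G] {A : Type v} [AddCommGroup A] (c : Coc G A) : Type (max u v) where
  z : A
  g : G

section Ext

variable {G : Type u} [Group G] {A : Type v} [AddCommGroup A] {c : Coc G A}

@[ext]
theorem Ext.ext' {x y : Ext c} (h1 : x.z = y.z) (h2 : x.g = y.g) : x = y := by
  cases x; cases y; simp only at h1 h2; subst h1 h2; rfl

instance : Mul (Ext c) := ⟨fun x y => ⟨x.z + y.z + c.F x.g y.g, x.g * y.g⟩⟩
instance : One (Ext c) := ⟨⟨0, 1⟩⟩
instance : Inv (Ext c) := ⟨fun x => ⟨-x.z - c.F x.g⁻¹ x.g, x.g⁻¹⟩⟩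

theorem mul_z (x y : Ext c) : (x * y).z = x.z + y.z + c.F x.g y.g := rfl
theorem mul_g (x y : Ext c) : (x * y).g = x.g * y.g := rfl
theorem one_z : (1 : Ext c).z = 0 := rfl
theorem one_g : (1 : Ext c).g = 1 := rfl
theorem inv_z (x : Ext c) : (x⁻¹).z = -x.z - c.F x.g⁻¹ x.g := rfl
theorem inv_g (x : Ext c) : (x⁻¹).g = x.g⁻¹ := rfl

instance : Group (Ext c) :=
  Group.ofLeftAxioms
    (by
      intro x y z
      apply Ext.ext'
      · simp only [mul_z, mul_g]
        have h := c.coc x.g y.g z.g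
        have : x.z + y.z + c.F x.g y.g + z.z + c.F (x.g * y.g) z.g =
            x.z + y.z + z.z + (c.F x.g y.g + c.F (x.g * y.g) z.g) := by abel
        rw [this, h]
        abel
      · simp only [mul_g, mul_assoc])
    (by
      intro x
      apply Ext.ext'
      · simp only [mul_z, one_z, one_g, c.one_left]; abel
      · simp only [mul_g, one_g, one_mul])
    (by
      intro x
      apply Ext.ext'
      · simp only [mul_z, inv_z, inv_g, one_z]; abel
      · simp only [mul_g, inv_g, one_g, inv_mul_cancel])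

/-- the projection -/
def proj (c : Coc G A) : Ext c →* G where
  toFun x := x.g
  map_one' := rfl
  map_mul' _ _ := rfl

theorem proj_apply (x : Ext c) : proj c x = x.g := rfl

theorem proj_surjective : Function.Surjective (proj c) := fun g => ⟨⟨0, g⟩, rfl⟩

instance [Finite G] [Finite A] : Finite (Ext c) :=
  Finite.of_injective (fun x : Ext c => (x.z, x.g)) fun x y h => by
    simp only [Prod.mk.injEq] at h
    exact Ext.ext' h.1 h.2

/-- the central elements -/
def cen (c : Coc G A) (a : A) : Ext c := ⟨a, 1⟩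

theorem cen_mul (a b : A) : cen c a * cen c b = cen c (a + b) := by
  apply Ext.ext'
  · simp only [mul_z, cen, c.one_left]; abel
  · simp only [mul_g, cen, one_mul]

theorem cen_zero : cen c (0 : A) = 1 := rfl

theorem cen_pow (a : A) (k : ℕ) : cen c a ^ k = cen c (k • a) := by
  induction k with
  | zero => rw [pow_zero, zero_smul, cen_zero]
  | succ k ih => rw [pow_succ, ih, cen_mul, succ_nsmul]

theorem cen_injective : Function.Injective (cen c) := fun a b h => congrArg Ext.z h

theorem cen_mem_center (a : A) : cen c a ∈ center (Ext c) := by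
  rw [mem_center_iff]
  intro x
  apply Ext.ext'
  · simp only [mul_z, cen, c.one_left, c.one_right]; abel
  · simp only [mul_g, cen, one_mul, mul_one]

theorem proj_eq_one {x : Ext c} : proj c x = 1 ↔ x = cen c x.z := by
  constructor
  · intro h
    exact Ext.ext' rfl h
  · intro h
    rw [h]
    rfl

/-- commuting lifts -/
theorem lifts_comm {x y : G} (hxy : x * y = y * x) (a b : A) :
    (⟨a, x⟩ : Ext c) * ⟨b, y⟩ = cen c (c.F x y - c.F y x) * ((⟨b, y⟩ : Ext c) * ⟨a, x⟩) := by
  apply Ext.ext'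
  · simp only [mul_z, mul_g, cen, c.one_left]; abel
  · simp only [mul_g, cen, one_mul]; exact hxy

end Ext

section mono

variable {G : Type u} [Group G] {P : Subgroup G}

/-- a section of the left cosets -/
noncomputable def sec (c : G ⧸ P) : G := Quotient.out c

theorem mk_sec (c : G ⧸ P) : ((sec c : G) : G ⧸ P) = c := Quotient.out_eq c

theorem hh_mem (g : G) (c : G ⧸ P) : (sec (g • c))⁻¹ * g * sec c ∈ P := by
  rw [mul_assoc, ← QuotientGroup.eq, mk_sec]
  have h1 : ((g * sec c : G) : G ⧸ P) = g • ((sec c : G) : G ⧸ P) := rfl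
  rw [h1, mk_sec]

/-- the monomial cocycle -/
noncomputable def hh (g : G) (c : G ⧸ P) : P := ⟨(sec (g • c))⁻¹ * g * sec c, hh_mem g c⟩

theorem hh_mul (g g' : G) (c : G ⧸ P) : hh (g * g') c = hh g (g' • c) * hh g' c := by
  apply Subtype.ext
  show (sec ((g * g') • c))⁻¹ * (g * g') * sec c =
    (sec (g • g' • c))⁻¹ * g * sec (g' • c) * ((sec (g' • c))⁻¹ * g' * sec c)
  rw [mul_smul]
  group

theorem hh_one (c : G ⧸ P) : hh 1 c = 1 := by
  apply Subtype.ext
  show (sec ((1 : G) • c))⁻¹ * 1 * sec c = 1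
  rw [one_smul]
  group

variable {R : Type v} [CommRing R]

/-- additive functions -/
def Add (a : P → R) : Prop := ∀ x y, a (x * y) = a x + a y

theorem Add.one {a : P → R} (ha : Add a) : a 1 = 0 := by
  have h := ha 1 1
  rw [mul_one] at h
  linear_combination -h

theorem Add.inv {a : P → R} (ha : Add a) (x : P) : a x⁻¹ = -a x := by
  have h := ha x x⁻¹
  rw [mul_inv_cancel, ha.one] at h
  linear_combination -h

/-- the cocycle -/
noncomputable def coc (a b : P → R) (ha : Add a) (hb : Add b) [Fintype (G ⧸ P)] : Coc G R where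
  F g g' := ∑ c : G ⧸ P, a (hh g (g' • c)) * b (hh g' c)
  coc x y z := by
    have h1 : ∑ c : G ⧸ P, a (hh x (y • c)) * b (hh y c) =
        ∑ c : G ⧸ P, a (hh x (y • z • c)) * b (hh y (z • c)) :=
      (Equiv.sum_comp (MulAction.toPerm z) (fun c : G ⧸ P => a (hh x (y • c)) * b (hh y c))).symm
    rw [h1, ← Finset.sum_add_distrib, ← Finset.sum_add_distrib]
    refine Finset.sum_congr rfl fun c _ => ?_
    rw [hh_mul, hh_mul, ha, hb, mul_smul]
    ring
  one_left x := by
    refine Finset.sum_eq_zero fun c _ => ?_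
    rw [hh_one, ha.one, zero_mul]
  one_right x := by
    refine Finset.sum_eq_zero fun c _ => ?_
    rw [hh_one, hb.one, mul_zero]

theorem coc_F (a b : P → R) (ha : Add a) (hb : Add b) [Fintype (G ⧸ P)] (g g' : G) :
    (coc a b ha hb).F g g' = ∑ c : G ⧸ P, a (hh g (g' • c)) * b (hh g' c) := rfl

/-- the sign by which an element acts on `P ∩ gPg⁻¹` -/
theorem exists_sign [Finite G] {p : ℕ} [Fact p.Prime] (h : Inv p P) (g : G) :
    ∃ e : R, e * e = 1 ∧ ∀ a : P → R, Add a → ∀ q q' : P, (q' : G) = g⁻¹ * q * g → a q' = e * a q := by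
  set S : Subgroup G := P ⊓ P.comap (MulAut.conj g⁻¹).toMonoidHom with hS
  have h1 : ∀ x ∈ S, g⁻¹ * x * g⁻¹⁻¹ ∈ P := fun x hx => (mem_inf.1 hx).2
  rcases h.fus (S := S) inf_le_left h1 with h2 | h2
  · refine ⟨1, one_mul 1, ?_⟩
    intro a ha q q' hq
    have hqS : (q : G) ∈ S := by
      rw [hS, mem_inf]
      refine ⟨q.2, ?_⟩
      show g⁻¹ * q * g⁻¹⁻¹ ∈ P
      rw [inv_inv, ← hq]
      exact q'.2
    have h3 := h2 q hqS
    rw [inv_inv, ← hq] at h3
    rw [Subtype.ext h3, one_mul]
  · refine ⟨-1, by ring, ?_⟩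
    intro a ha q q' hq
    have hqS : (q : G) ∈ S := by
      rw [hS, mem_inf]
      refine ⟨q.2, ?_⟩
      show g⁻¹ * q * g⁻¹⁻¹ ∈ P
      rw [inv_inv, ← hq]
      exact q'.2
    have h3 := h2 q hqS
    rw [inv_inv, ← hq] at h3
    have h4 : q' = q⁻¹ := Subtype.ext h3
    rw [h4, ha.inv]
    ring

theorem exists_form [Finite G] {p : ℕ} [Fact p.Prime] (h : Inv p P) :
    ∃ e : G ⧸ P → R, (∀ c, e c * e c = 1) ∧ (∀ (x : P) (c : G ⧸ P), e ((x : G) • c) = e c) ∧
      ∀ a : P → R, Add a → ∃ W : G ⧸ P → R, ∀ (x : P) (c : G ⧸ P),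
        a (hh (x : G) c) = e c * (a x + W c - W ((x : G) • c)) := by
  classical
  choose ε hε using fun g : G => exists_sign (R := R) h g
  let rep : G ⧸ P → G ⧸ P := fun c => (Quotient.mk (MulAction.orbitRel P (G ⧸ P)) c).out
  have hrep : ∀ c, ∃ k : P, (k : G) • rep c = c := by
    intro c
    have h1 : (MulAction.orbitRel P (G ⧸ P)).r c (rep c) :=
      (MulAction.orbitRel P (G ⧸ P)).symm (Quotient.mk_out (s := MulAction.orbitRel P (G ⧸ P)) c)
    obtain ⟨k, hk⟩ := h1
    exact ⟨k, hk⟩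
  have hrep2 : ∀ (x : P) (c : G ⧸ P), rep ((x : G) • c) = rep c := by
    intro x c
    have h1 : Quotient.mk (MulAction.orbitRel P (G ⧸ P)) ((x : G) • c) =
        Quotient.mk (MulAction.orbitRel P (G ⧸ P)) c := by
      apply Quotient.sound
      exact ⟨x, rfl⟩
    show (Quotient.mk (MulAction.orbitRel P (G ⧸ P)) ((x : G) • c)).out = _
    rw [h1]
  choose k hk using hrep
  have hpm : ∀ c, ((k c : G) * sec (rep c))⁻¹ * sec c ∈ P := by
    intro c
    rw [← QuotientGroup.eq, mk_sec]
    have h1 : (((k c : G) * sec (rep c) : G) : G ⧸ P) = (k c : G) • ((sec (rep c) : G) : G ⧸ P) := rfl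
    rw [h1, mk_sec, hk]
  let pc : G ⧸ P → P := fun c => ⟨((k c : G) * sec (rep c))⁻¹ * sec c, hpm c⟩
  have hsec : ∀ c, sec c = (k c : G) * sec (rep c) * (pc c : G) := by
    intro c
    show sec c = (k c : G) * sec (rep c) * (((k c : G) * sec (rep c))⁻¹ * sec c)
    group
  refine ⟨fun c => ε (sec (rep c)), fun c => (hε _).1, fun x c => by simp only [hrep2], ?_⟩
  intro a ha
  refine ⟨fun c => a (k c) + ε (sec (rep c)) * a (pc c), ?_⟩
  intro x c
  simp only [hrep2]
  have h1 : ((pc ((x : G) • c) * hh (x : G) c * (pc c)⁻¹ : P) : G) =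
      (sec (rep c))⁻¹ * (((k ((x : G) • c))⁻¹ * x * k c : P) : G) * sec (rep c) := by
    have h2 := hsec ((x : G) • c)
    rw [hrep2] at h2
    have h3 := hsec c
    show (pc ((x : G) • c) : G) * ((sec ((x : G) • c))⁻¹ * x * sec c) * (pc c : G)⁻¹ =
      (sec (rep c))⁻¹ * ((k ((x : G) • c) : G)⁻¹ * x * k c) * sec (rep c)
    rw [h2, h3]
    group
  have h2 := (hε (sec (rep c))).2 a ha _ _ h1
  rw [ha, ha, ha, ha, ha.inv, ha.inv] at h2
  have h3 := (hε (sec (rep c))).1
  linear_combination h2 + (a (pc c) - a (pc ((x : G) • c))) * (-h3)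

theorem F_comm_sub [Finite G] [Fintype (G ⧸ P)] {p : ℕ} [Fact p.Prime] (h : Inv p P) {a b : P → R}
    (ha : Add a) (hb : Add b) (x y : P) :
    (coc a b ha hb).F x y - (coc a b ha hb).F y x =
      (Nat.card (G ⧸ P) : R) * (a x * b y - a y * b x) := by
  obtain ⟨e, he1, he2, hform⟩ := exists_form (R := R) h
  obtain ⟨A, hA⟩ := hform a ha
  obtain ⟨B, hB⟩ := hform b hb
  have key : ∀ x y : P, (coc a b ha hb).F x y = (Nat.card (G ⧸ P) : R) * (a x * b y) +
      (∑ c : G ⧸ P, A ((y : G) • c) * B c) + (∑ c : G ⧸ P, A ((x : G) • c) * B c) -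
      (∑ c : G ⧸ P, A c * B c) - ∑ c : G ⧸ P, A (((x * y : P) : G) • c) * B c := by
    intro x y
    rw [coc_F]
    have s1 : ∑ c : G ⧸ P, B ((y : G) • c) = ∑ c : G ⧸ P, B c :=
      Equiv.sum_comp (MulAction.toPerm (y : G)) B
    have s2 : ∑ c : G ⧸ P, A ((y : G) • c) = ∑ c : G ⧸ P, A c :=
      Equiv.sum_comp (MulAction.toPerm (y : G)) A
    have s3 : ∑ c : G ⧸ P, A (((x * y : P) : G) • c) = ∑ c : G ⧸ P, A c :=
      Equiv.sum_comp (MulAction.toPerm ((x * y : P) : G)) A
    have s4 : ∑ c : G ⧸ P, A ((y : G) • c) * B ((y : G) • c) = ∑ c : G ⧸ P, A c * B c :=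
      Equiv.sum_comp (MulAction.toPerm (y : G)) (fun c => A c * B c)
    have s5 : ∑ c : G ⧸ P, A (((x * y : P) : G) • c) * B ((y : G) • c) =
        ∑ c : G ⧸ P, A ((x : G) • c) * B c := by
      rw [← Equiv.sum_comp (MulAction.toPerm (y : G)) (fun c => A ((x : G) • c) * B c)]
      refine Finset.sum_congr rfl fun c _ => ?_
      simp only [MulAction.toPerm_apply, Subgroup.coe_mul, mul_smul]
    have e1 : ∀ c : G ⧸ P, a (hh (x : G) ((y : G) • c)) * b (hh (y : G) c) =
        a x * b y + a x * (B c - B ((y : G) • c)) + b y * (A ((y : G) • c) - A (((x * y : P) : G) • c)) +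
          A ((y : G) • c) * B c - A ((y : G) • c) * B ((y : G) • c) -
          A (((x * y : P) : G) • c) * B c + A (((x * y : P) : G) • c) * B ((y : G) • c) := by
      intro c
      have h3 : ((x : G) • (y : G) • c) = ((x * y : P) : G) • c := by
        rw [Subgroup.coe_mul, mul_smul]
      rw [hA, hB, he2, h3]
      linear_combination ((a x + A ((y : G) • c) - A (((x * y : P) : G) • c)) *
        (b y + B c - B ((y : G) • c))) * he1 c
    rw [Finset.sum_congr rfl fun c _ => e1 c]
    simp only [Finset.sum_add_distrib, Finset.sum_sub_distrib, ← Finset.mul_sum, Finset.sum_const,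
      Finset.card_univ, nsmul_eq_mul]
    rw [s1, s2, s3, s4, s5, Nat.card_eq_fintype_card]
    ring
  rw [key x y, key y x]
  have hxy : x * y = y * x := Subtype.ext (h.comm x x.2 y y.2)
  rw [hxy]
  ring

end mono

/-- two independent homomorphisms of a noncyclic abelian `p`-group -/
theorem exists_pair {X : Type u} [CommGroup X] [Finite X] {p k : ℕ} [hp : Fact p.Prime]
    (hcard : Nat.card X = p ^ k) (hnc : ¬ IsCyclic X) :
    ∃ a b : X → ZMod p, (∀ x y, a (x * y) = a x + a y) ∧ (∀ x y, b (x * y) = b x + b y) ∧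
      ∃ x y : X, a x * b y - a y * b x ≠ 0 := by
  classical
  obtain ⟨ι, _, n, hn, ⟨e⟩⟩ := CommGroup.equiv_prod_multiplicative_zmod_of_finite X
  have hnt : ∃ i j : ι, i ≠ j := by
    by_contra hcon
    push Not at hcon
    apply hnc
    let g : (i : ι) → Multiplicative (ZMod (n i)) := fun i => Multiplicative.ofAdd 1
    refine ⟨e.symm g, ?_⟩
    intro x
    by_cases hι : Nonempty ι
    · obtain ⟨i⟩ := hι
      refine ⟨((Multiplicative.toAdd (e x i)).val : ℤ), ?_⟩
      simp only
      rw [zpow_natCast, ← map_pow, MulEquiv.symm_apply_eq]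
      funext j
      have hij := hcon i j
      subst hij
      have : NeZero (n i) := ⟨by have := hn i; omega⟩
      apply Multiplicative.toAdd.injective
      rw [Pi.pow_apply, toAdd_pow]
      simp [g]
    · refine ⟨0, ?_⟩
      simp only
      rw [zpow_zero]
      apply e.injective
      funext i
      exact absurd ⟨i⟩ hι
  have hdvd : ∀ i, p ∣ n i := by
    intro i
    have hNe : NeZero (n i) := ⟨by have := hn i; omega⟩
    have h1 : n i ∣ p ^ k := by
      rw [← hcard]
      let f : X →* Multiplicative (ZMod (n i)) := (Pi.evalMonoidHom _ i).comp e.toMonoidHom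
      have hf : Function.Surjective f := by
        intro y
        refine ⟨e.symm (Pi.mulSingle i y), ?_⟩
        simp [f]
      have h2 := Subgroup.card_range_dvd f
      have h3 : f.range = ⊤ := MonoidHom.range_eq_top.2 hf
      rw [h3, Subgroup.card_top] at h2
      have h4 : Nat.card (Multiplicative (ZMod (n i))) = n i := by
        rw [Nat.card_congr Multiplicative.toAdd, Nat.card_zmod]
      rwa [h4] at h2
    obtain ⟨m, hm, hm2⟩ := (Nat.dvd_prime_pow hp.out).1 h1
    rw [hm2]
    apply dvd_pow_self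
    rintro rfl
    rw [pow_zero] at hm2
    have := hn i
    omega
  obtain ⟨i, j, hij⟩ := hnt
  let a : X → ZMod p := fun x => ZMod.castHom (hdvd i) (ZMod p) (Multiplicative.toAdd (e x i))
  let b : X → ZMod p := fun x => ZMod.castHom (hdvd j) (ZMod p) (Multiplicative.toAdd (e x j))
  refine ⟨a, b, ?_, ?_, e.symm (Pi.mulSingle i (Multiplicative.ofAdd 1)),
    e.symm (Pi.mulSingle j (Multiplicative.ofAdd 1)), ?_⟩
  · intro x y
    simp only [a, map_mul, Pi.mul_apply, toAdd_mul, map_add]
  · intro x y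
    simp only [b, map_mul, Pi.mul_apply, toAdd_mul, map_add]
  · simp only [a, b, MulEquiv.apply_symm_apply]
    rw [Pi.mulSingle_eq_same, Pi.mulSingle_eq_same, Pi.mulSingle_eq_of_ne hij, Pi.mulSingle_eq_of_ne hij.symm,
      toAdd_ofAdd, toAdd_ofAdd, toAdd_one, toAdd_one, map_one, map_one, map_zero, map_zero, mul_zero, sub_zero,
      mul_one]
    exact one_ne_zero

theorem exists_ext {G : Type u} [Group G] [Finite G] {P : Subgroup G} {p : ℕ} [hp : Fact p.Prime]
    (h : Inv p P) (hnc : ¬ IsCyclic P) :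
    ∃ (Γ : Type u) (_ : Group Γ) (_ : Finite Γ) (φ : Γ →* G) (z : Γ), Function.Surjective φ ∧
      z ∈ center Γ ∧ orderOf z = p ∧ φ.ker = zpowers z ∧
      ∀ χ : Cfsg.IrrCharacter Γ, (χ : Γ → ℂ) 1 = 1 → (χ : Γ → ℂ) z = 1 := by
  classical
  have := Fintype.ofFinite (G ⧸ P)
  obtain ⟨k, hk⟩ := h.card
  let _ : CommGroup P := { (inferInstance : Group P) with
    mul_comm := fun a b => Subtype.ext (h.comm a a.2 b b.2) }
  obtain ⟨a, b, ha, hb, x, y, hxy⟩ := exists_pair (X := P) hk hnc
  have hF := F_comm_sub (R := ZMod p) h (a := a) (b := b) ha hb x y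
  set c := coc (G := G) a b ha hb with hc
  have hidx : (Nat.card (G ⧸ P) : ZMod p) ≠ 0 := by
    obtain ⟨Q, hQ⟩ := h.syl
    rw [Ne, ZMod.natCast_eq_zero_iff]
    have h1 := Q.not_dvd_index
    rw [hQ, Subgroup.index_eq_card] at h1
    exact h1
  set d : ZMod p := c.F x y - c.F y x with hd
  have hd0 : d ≠ 0 := by
    rw [hF]
    exact mul_ne_zero hidx hxy
  refine ⟨Ext c, inferInstance, inferInstance, proj c, cen c d, proj_surjective, cen_mem_center d, ?_, ?_, ?_⟩
  · refine orderOf_eq_prime ?_ ?_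
    · rw [cen_pow]
      have : p • d = 0 := by
        rw [nsmul_eq_mul, ZMod.natCast_self, zero_mul]
      rw [this, cen_zero]
    · intro h0
      apply hd0
      exact cen_injective (h0.trans cen_zero.symm)
  · ext g
    rw [MonoidHom.mem_ker, proj_eq_one]
    constructor
    · intro hg
      rw [hg]
      refine ⟨((g.z * d⁻¹).val : ℤ), ?_⟩
      simp only
      rw [zpow_natCast, cen_pow]
      congr 1
      rw [nsmul_eq_mul, ZMod.natCast_val, ZMod.cast_id, mul_assoc, inv_mul_cancel₀ hd0, mul_one]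
    · rintro ⟨m, rfl⟩
      rw [← proj_eq_one]
      simp only
      rw [map_zpow]
      have : proj c (cen c d) = 1 := rfl
      rw [this, one_zpow]
  · intro χ hχ
    have hcomm : (x : G) * y = y * x := h.comm x x.2 y y.2
    have h1 := lifts_comm (c := c) hcomm 0 0
    rw [← hd] at h1
    have h2 := congrArg (χ : Ext c → ℂ) h1
    rw [χ.2.isCharacter.map_mul_of_linear hχ, χ.2.isCharacter.map_mul_of_linear hχ,
      χ.2.isCharacter.map_mul_of_linear hχ] at h2
    have h3 := χ.2.isCharacter.ne_zero_of_linear hχ (⟨0, x⟩ : Ext c)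
    have h4 := χ.2.isCharacter.ne_zero_of_linear hχ (⟨0, y⟩ : Ext c)
    have h5 : ((χ : Ext c → ℂ) (cen c d) - 1) *
        ((χ : Ext c → ℂ) (⟨0, x⟩ : Ext c) * (χ : Ext c → ℂ) (⟨0, y⟩ : Ext c)) = 0 := by
      linear_combination -h2
    exact sub_eq_zero.1 ((mul_eq_zero.1 h5).resolve_right (mul_ne_zero h3 h4))

end Cfsg.Agent.Lib.H25Ext
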