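import Mathlib

/-!
# Families of integral vectors of norm three with inner products two
-/

set_option autoImplicit false

namespace Cfsg.Agent.Lib.H25Star

open Finset

variable {I : Type*} [DecidableEq I]

/-- integral vectors of norm two -/
theorem two_support {S : Finset I} {f : I → ℤ} (h : ∑ i ∈ S, f i ^ 2 = 2) :
    ∃ a ∈ S, ∃ b ∈ S, a ≠ b ∧ f a ^ 2 = 1 ∧ f b ^ 2 = 1 ∧ ∀ i ∈ S, i ≠ a → i ≠ b → f i = 0 := by
  have hex : ∃ a ∈ S, f a ≠ 0 := by
    by_contra hcon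
    push Not at hcon
    rw [sum_congr rfl (fun i hi => by rw [hcon i hi])] at h
    simp at h
  obtain ⟨a, ha, ha0⟩ := hex
  have h1 : f a ^ 2 + ∑ i ∈ S.erase a, f i ^ 2 = 2 := by rw [add_sum_erase S (fun i => f i ^ 2) ha, h]
  have h2 : 0 ≤ ∑ i ∈ S.erase a, f i ^ 2 := sum_nonneg fun i _ => sq_nonneg _
  have h3 : f a ^ 2 = 1 := by
    have hle : f a ^ 2 ≤ 2 := by linarith
    have habs : |f a| ≤ 1 := by
      by_contra hc
      push Not at hc
      have : 2 ≤ |f a| := by omega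
      have h4 : (2 : ℤ) ^ 2 ≤ |f a| ^ 2 := by gcongr
      rw [sq_abs] at h4
      omega
    rw [abs_le] at habs
    obtain ⟨h5, h6⟩ := habs
    interval_cases f a <;> simp_all
  have h4 : ∑ i ∈ S.erase a, f i ^ 2 = 1 := by omega
  have hex2 : ∃ b ∈ S.erase a, f b ≠ 0 := by
    by_contra hcon
    push Not at hcon
    rw [sum_congr rfl (fun i hi => by rw [hcon i hi])] at h4
    simp at h4
  obtain ⟨b, hb, hb0⟩ := hex2
  have h5 : f b ^ 2 + ∑ i ∈ (S.erase a).erase b, f i ^ 2 = 1 := by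
    rw [add_sum_erase (S.erase a) (fun i => f i ^ 2) hb, h4]
  have h6 : 0 ≤ ∑ i ∈ (S.erase a).erase b, f i ^ 2 := sum_nonneg fun i _ => sq_nonneg _
  have h7 : 0 < f b ^ 2 := by positivity
  have h8 : f b ^ 2 = 1 := by omega
  have h9 : ∑ i ∈ (S.erase a).erase b, f i ^ 2 = 0 := by omega
  rw [mem_erase] at hb
  refine ⟨a, ha, b, hb.2, hb.1.symm, h3, h8, ?_⟩
  intro i hi hia hib
  have h10 := (sum_eq_zero_iff_of_nonneg (fun i _ => sq_nonneg (f i))).1 h9 i
    (mem_erase.2 ⟨hib, mem_erase.2 ⟨hia, hi⟩⟩)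
  exact pow_eq_zero_iff (two_ne_zero) |>.1 h10

/-- inner products with a vector of norm two -/
theorem inner_two {S : Finset I} {f g : I → ℤ} {a b : I} (ha : a ∈ S) (hb : b ∈ S) (hab : a ≠ b)
    (hf : ∀ i ∈ S, i ≠ a → i ≠ b → f i = 0) : ∑ i ∈ S, f i * g i = f a * g a + f b * g b := by
  rw [← add_sum_erase S _ ha, ← add_sum_erase (S.erase a) _ (mem_erase.2 ⟨hab.symm, hb⟩)]
  rw [sum_eq_zero, add_zero]
  intro i hi
  rw [mem_erase, mem_erase] at hi
  rw [hf i hi.2.2 hi.2.1 hi.1, zero_mul]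

theorem le_one_of_norm {S : Finset I} {f : I → ℤ} (h : ∑ i ∈ S, f i ^ 2 = 2) {i : I} (hi : i ∈ S) :
    f i = 0 ∨ f i = 1 ∨ f i = -1 := by
  obtain ⟨a, ha, b, hb, hab, h1, h2, h3⟩ := two_support h
  have hsq : f i ^ 2 = 1 ∨ f i = 0 := by
    by_cases h4 : i = a
    · left; rw [h4, h1]
    · by_cases h5 : i = b
      · left; rw [h5, h2]
      · right; exact h3 i hi h4 h5
  rcases hsq with h4 | h4
  · right
    have h5 : (f i - 1) * (f i + 1) = 0 := by linear_combination h4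
    rcases mul_eq_zero.1 h5 with h6 | h6
    · left; omega
    · right; omega
  · left; exact h4

/-- four pairwise inequivalent vectors form a star -/
theorem star {L : Type*} {S : Finset I} (n : L → I → ℤ) (sim : L → L → Prop)
    (hn : ∀ l m, sim l m → n l = n m) (h3 : ∀ l, ∑ i ∈ S, n l i ^ 2 = 2)
    (h2 : ∀ l m, ¬ sim l m → ∑ i ∈ S, n l i * n m i = 1) {l₁ l₂ l₃ l₄ : L}
    (h12 : ¬ sim l₁ l₂) (h13 : ¬ sim l₁ l₃) (h14 : ¬ sim l₁ l₄)
    (h23 : ¬ sim l₂ l₃) (h24 : ¬ sim l₂ l₄) (h34 : ¬ sim l₃ l₄) :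
    ∃ a ∈ S, ∃ s : ℤ, s ^ 2 = 1 ∧ ∀ l, n l a = s := by
  have key : ∀ l, ∀ i ∈ S, n l i = 0 ∨ n l i = 1 ∨ n l i = -1 := fun l i hi => le_one_of_norm (h3 l) hi
  -- the common index of two vectors
  have step1 : ∃ a ∈ S, ∃ b ∈ S, a ≠ b ∧ (n l₁ a) ^ 2 = 1 ∧ (n l₁ b) ^ 2 = 1 ∧
      (∀ i ∈ S, i ≠ a → i ≠ b → n l₁ i = 0) ∧ n l₂ a = n l₁ a ∧ n l₂ b = 0 := by
    obtain ⟨a, ha, b, hb, hab, h4, h5, h6⟩ := two_support (h3 l₁)
    have h7 := h2 l₁ l₂ h12
    rw [inner_two ha hb hab h6] at h7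
    rcases key l₂ a ha with h8 | h8 | h8 <;> rcases key l₂ b hb with h9 | h9 | h9 <;>
      rcases key l₁ a ha with h10 | h10 | h10 <;> rcases key l₁ b hb with h11 | h11 | h11 <;>
      rw [h8, h9, h10, h11] at h7 <;> first
        | omega
        | (exfalso; rw [h10] at h4; revert h4; norm_num; done)
        | (exfalso; rw [h11] at h5; revert h5; norm_num; done)
        | exact ⟨a, ha, b, hb, hab, h4, h5, h6, h8.trans h10.symm, h9⟩
        | exact ⟨b, hb, a, ha, hab.symm, h5, h4, fun i hi h12 h13 => h6 i hi h13 h12, h9.trans h11.symm, h8⟩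
  obtain ⟨a, ha, b, hb, hab, h4, h5, h6, h7, h8⟩ := step1
  have step2 : ∃ c ∈ S, a ≠ c ∧ (n l₂ c) ^ 2 = 1 ∧ (∀ i ∈ S, i ≠ a → i ≠ c → n l₂ i = 0) := by
    obtain ⟨a', ha', b', hb', hab', h9, h10, h11⟩ := two_support (h3 l₂)
    by_cases h12' : a = a'
    · subst h12'
      exact ⟨b', hb', hab', h10, h11⟩
    · by_cases h13' : a = b'
      · subst h13'
        exact ⟨a', ha', h12', h9, fun i hi h14' h15 => h11 i hi h15 h14'⟩
      · exfalso
        have := h11 a ha h12' h13'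
        rw [h7] at this
        rw [this] at h4
        revert h4; norm_num
  obtain ⟨c, hc, hac, h9, h10⟩ := step2
  have hbc : b ≠ c := by
    rintro rfl
    rw [h8] at h9; revert h9; norm_num
  -- description of a vector inequivalent to both
  have step3 : ∀ m, ¬ sim l₁ m → ¬ sim l₂ m → (n m a = n l₁ a ∧ n m b = 0 ∧ n m c = 0) ∨
      (n m a = 0 ∧ n m b = n l₁ b ∧ n m c = n l₂ c) := by
    intro m hm1 hm2
    have e1 := h2 l₁ m hm1
    have e2 := h2 l₂ m hm2
    rw [inner_two ha hb hab h6] at e1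
    rw [inner_two ha hc hac h10, h7] at e2
    have k5 := key l₁ b hb
    have k6 := key l₂ c hc
    have k4' : n l₁ a ≠ 0 := by
      intro h0; rw [h0] at h4; revert h4; norm_num
    have k5' : n l₁ b ≠ 0 := by
      intro h0; rw [h0] at h5; revert h5; norm_num
    have k6' : n l₂ c ≠ 0 := by
      intro h0; rw [h0] at h9; revert h9; norm_num
    rcases key m a ha with k1 | k1 | k1 <;> rcases key m b hb with k2 | k2 | k2 <;>
      rcases key m c hc with k3 | k3 | k3 <;> rcases key l₁ a ha with k4 | k4 | k4 <;>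
      rw [k1, k2, k4] at e1 <;> rw [k1, k3, k4] at e2 <;> omega
  refine ⟨a, ha, n l₁ a, h4, ?_⟩
  intro m
  by_cases hm1 : sim l₁ m
  · rw [← hn _ _ hm1]
  by_cases hm2 : sim l₂ m
  · rw [← hn _ _ hm2, h7]
  rcases step3 m hm1 hm2 with hg | hbad
  · exact hg.1
  exfalso
  -- a second vector
  have hex : ∃ m', ¬ sim l₁ m' ∧ ¬ sim l₂ m' ∧ ¬ sim m m' := by
    by_cases h3m : sim m l₃
    · by_cases h4m : sim m l₄
      · exfalso
        have e1 := h2 l₃ l₄ h34
        rw [← hn _ _ h3m, ← hn _ _ h4m] at e1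
        have e2 := h3 m
        have e3 : ∑ i ∈ S, n m i * n m i = ∑ i ∈ S, n m i ^ 2 := sum_congr rfl fun i _ => (sq _).symm
        omega
      · exact ⟨l₄, h14, h24, h4m⟩
    · exact ⟨l₃, h13, h23, h3m⟩
  obtain ⟨m', hm1', hm2', hmm⟩ := hex
  -- support of the bad vector
  obtain ⟨k1, k2, k3⟩ := hbad
  have hnb : n m b ≠ 0 := by
    rw [k2]; intro h0; rw [h0] at h5; revert h5; norm_num
  have hnc : n m c ≠ 0 := by
    rw [k3]; intro h0; rw [h0] at h9; revert h9; norm_num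
  have hsupp : ∀ i ∈ S, i ≠ b → i ≠ c → n m i = 0 := by
    obtain ⟨u, hu, v, hv, huv, q1, q2, q3⟩ := two_support (h3 m)
    have hbu : b = u ∨ b = v := by
      by_contra hcon
      push Not at hcon
      exact hnb (q3 b hb hcon.1 hcon.2)
    have hcu : c = u ∨ c = v := by
      by_contra hcon
      push Not at hcon
      exact hnc (q3 c hc hcon.1 hcon.2)
    intro i hi hib hic
    rcases hbu with rfl | rfl <;> rcases hcu with rfl | rfl
    · exact absurd rfl hbc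
    · exact q3 i hi hib hic
    · exact q3 i hi hic hib
    · exact absurd rfl hbc
  have e1 := h2 m m' hmm
  rw [inner_two hb hc hbc hsupp] at e1
  rcases step3 m' hm1' hm2' with ⟨q1, q2, q3⟩ | ⟨q1, q2, q3⟩
  · rw [q2, q3] at e1
    revert e1; norm_num
  · rw [k2, k3, q2, q3] at e1
    nlinarith

end Cfsg.Agent.Lib.H25Star
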