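import Cfsg.Agent.Lib.BlockColumn
import Cfsg.Agent.Lib.Subsec
import Cfsg.Agent.Lib.BlockDefZero
import Cfsg.Agent.Lib.CharBasic2
import Cfsg.Agent.Lib.H25Star

set_option autoImplicit false

/-!
# Groups with an abelian Sylow subgroup whose normaliser acts by inversion (helper25)
-/

namespace Cfsg.Agent.Lib.H25Inv

open scoped ComplexConjugate
open Cfsg Cfsg.Agent.Lib Cfsg.Agent.Lib.CharBasic Cfsg.Agent.Lib.BlockRing Cfsg.Agent.Lib.BlockIdem
open Cfsg.Agent.Lib.BlockThird Cfsg.Agent.Lib.BlockColumn Cfsg.Agent.Lib.Subsec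
open Subgroup

universe u

variable {G : Type u} [Group G] {p : ℕ} {P : Subgroup G}

/-- `P` is an abelian Sylow subgroup, its normaliser acts on it by `±1`, and the inversion occurs. -/
structure Inv (p : ℕ) (P : Subgroup G) : Prop where
  syl : ∃ Q : Sylow p G, (Q : Subgroup G) = P
  comm : ∀ x ∈ P, ∀ y ∈ P, x * y = y * x
  norm : ∀ n : G, (∀ x ∈ P, n * x * n⁻¹ ∈ P) →
    (∀ x ∈ P, n * x * n⁻¹ = x) ∨ (∀ x ∈ P, n * x * n⁻¹ = x⁻¹)
  inv : ∃ t : G, ∀ x ∈ P, t * x * t⁻¹ = x⁻¹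

theorem Inv.fus [Finite G] [Fact p.Prime] (h : Inv p P) {S : Subgroup G} (hS : S ≤ P) {g : G}
    (hg : ∀ x ∈ S, g * x * g⁻¹ ∈ P) :
    (∀ x ∈ S, g * x * g⁻¹ = x) ∨ (∀ x ∈ S, g * x * g⁻¹ = x⁻¹) := by
  obtain ⟨Q, hQ⟩ := h.syl
  subst hQ
  have h1 : (Q : Subgroup G) ≤ centralizer (S : Set G) := by
    intro q hq
    rw [mem_centralizer_iff]
    intro x hx
    exact h.comm x (hS hx) q hq
  have h2 : ((g⁻¹ • Q : Sylow p G) : Subgroup G) ≤ centralizer (S : Set G) := by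
    rintro - ⟨q, hq, rfl⟩
    rw [mem_centralizer_iff]
    intro x hx
    have h3 := h.comm _ (hg x hx) q hq
    show x * (g⁻¹ * q * g⁻¹⁻¹) = (g⁻¹ * q * g⁻¹⁻¹) * x
    calc x * (g⁻¹ * q * g⁻¹⁻¹) = g⁻¹ * (g * x * g⁻¹ * q) * g := by group
      _ = g⁻¹ * (q * (g * x * g⁻¹)) * g := by rw [h3]
      _ = g⁻¹ * q * g⁻¹⁻¹ * x := by group
  obtain ⟨c, hc⟩ := MulAction.exists_smul_eq (centralizer (S : Set G)) ((g⁻¹ • Q).subtype h2) (Q.subtype h1)
  rw [Sylow.smul_subtype] at hc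
  have h3' := Sylow.subtype_injective hc
  rw [Subgroup.smul_def, smul_smul] at h3'
  have h3 := Sylow.smul_eq_iff_mem_normalizer.mp h3'
  have hcc : ∀ x ∈ S, (c : G) * x = x * c := fun x hx => (mem_centralizer_iff.1 c.2 x hx).symm
  have h4 : ∀ x ∈ (Q : Subgroup G), g * (c : G)⁻¹ * x * (g * (c : G)⁻¹)⁻¹ ∈ (Q : Subgroup G) := by
    intro x hx
    have h5 := inv_mem h3
    have h6 := (mem_normalizer_iff.1 h5 x).1 hx
    simpa [mul_assoc] using h6
  have h7 : ∀ x ∈ S, g * (c : G)⁻¹ * x * (g * (c : G)⁻¹)⁻¹ = g * x * g⁻¹ := by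
    intro x hx
    calc g * (c : G)⁻¹ * x * (g * (c : G)⁻¹)⁻¹ = g * (c : G)⁻¹ * (x * c) * g⁻¹ := by group
      _ = g * (c : G)⁻¹ * (c * x) * g⁻¹ := by rw [hcc x hx]
      _ = g * x * g⁻¹ := by group
  rcases h.norm _ h4 with h8 | h8
  · left
    intro x hx
    rw [← h7 x hx, h8 x (hS hx)]
  · right
    intro x hx
    rw [← h7 x hx, h8 x (hS hx)]

theorem Inv.order [Finite G] [Fact p.Prime] (h : Inv p P) {x : G} (hx : x ∈ P) : ∃ k, orderOf x = p ^ k := by
  obtain ⟨Q, rfl⟩ := h.syl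
  obtain ⟨k, hk⟩ := IsPGroup.iff_orderOf.mp Q.2 ⟨x, hx⟩
  exact ⟨k, by rwa [Subgroup.orderOf_mk] at hk⟩

theorem Inv.card [Finite G] [Fact p.Prime] (h : Inv p P) : ∃ k, Nat.card P = p ^ k := by
  obtain ⟨Q, rfl⟩ := h.syl
  exact IsPGroup.iff_card.1 Q.2

theorem Inv.sq_eq_one [Finite G] [Fact p.Prime] (h : Inv p P) (hp : p ≠ 2) {x : G} (hx : x ∈ P)
    (h2 : x = x⁻¹) : x = 1 := by
  obtain ⟨k, hk⟩ := h.order hx
  have h3 : orderOf x ∣ 2 := by
    rw [orderOf_dvd_iff_pow_eq_one, sq]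
    nth_rewrite 2 [h2]
    exact mul_inv_cancel x
  have hpp : p.Prime := Fact.out
  have hodd : Odd (orderOf x) := by
    rw [hk]; exact (hpp.odd_of_ne_two hp).pow
  rcases (Nat.dvd_prime Nat.prime_two).1 h3 with h4 | h4
  · exact orderOf_eq_one_iff.1 h4
  · rw [h4] at hodd
    exact absurd hodd (by decide)

theorem Inv.conj_iff [Finite G] [Fact p.Prime] (h : Inv p P) {x y : G} (hx : x ∈ P) (hy : y ∈ P) :
    IsConj x y ↔ y = x ∨ y = x⁻¹ := by
  constructor
  · intro hc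
    obtain ⟨g, hg⟩ := isConj_iff.1 hc
    have h1 : ∀ z ∈ zpowers x, g * z * g⁻¹ ∈ P := by
      rintro _ ⟨k, rfl⟩
      simp only
      rw [← conj_zpow, hg]
      exact zpow_mem hy k
    rcases h.fus ((zpowers_le (H := P)).2 hx) h1 with h2 | h2
    · left; rw [← hg, h2 x (mem_zpowers x)]
    · right; rw [← hg, h2 x (mem_zpowers x)]
  · rintro (rfl | rfl)
    · exact IsConj.refl _
    · obtain ⟨t, ht⟩ := h.inv
      exact isConj_iff.2 ⟨t, ht x hx⟩

theorem Inv.lamB_eq [Finite G] [Fact p.Prime] (h : Inv p P) (hp : p ≠ 2) {M : Ideal AlgInt}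
    (hM : IsPModular p M) {x : G} (hx : x ∈ P) (hx1 : x ≠ 1) :
    lamB M ↥(centralizer ({x} : Set G)) = Nat.card P := by
  obtain ⟨Q, hQ⟩ := h.syl
  have hle : (Q : Subgroup G) ≤ centralizer ({x} : Set G) := by
    rw [hQ]
    intro y hy
    rw [mem_centralizer_singleton_iff]
    exact h.comm y hy x hx
  set Q' : Sylow p (centralizer ({x} : Set G)) := Q.subtype hle with hQ'
  have hcoe : (Q' : Subgroup (centralizer ({x} : Set G))) = (Q : Subgroup G).subgroupOf _ := rfl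
  have hN : normalizer ((Q' : Subgroup (centralizer ({x} : Set G))) : Set (centralizer ({x} : Set G))) ≤
      centralizer ((Q' : Subgroup (centralizer ({x} : Set G))) : Set (centralizer ({x} : Set G))) := by
    intro n hn
    have h1 : ∀ y ∈ P, (n : G) * y * (n : G)⁻¹ ∈ P := by
      intro y hy
      rw [← hQ] at hy ⊢
      have h2 : (⟨y, hle hy⟩ : centralizer ({x} : Set G)) ∈ (Q' : Subgroup (centralizer ({x} : Set G))) := by
        rw [hcoe, mem_subgroupOf]; exact hy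
      have h3 := (mem_normalizer_iff.1 hn _).1 h2
      rw [hcoe] at h3
      exact h3
    have h4 : ∀ y ∈ P, (n : G) * y * (n : G)⁻¹ = y := by
      rcases h.norm n h1 with h5 | h5
      · exact h5
      · exfalso
        have h6 := h5 x hx
        have h7 : (n : G) * x * (n : G)⁻¹ = x := by
          rw [mem_centralizer_singleton_iff.1 n.2]; group
        rw [h7] at h6
        exact hx1 (h.sq_eq_one hp hx h6)
    rw [mem_centralizer_iff]
    intro y hy
    have h8 := h4 y (by rw [← hQ]; exact hy)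
    apply Subtype.ext
    show (y : G) * n = n * y
    rw [mul_inv_eq_iff_eq_mul] at h8
    exact h8.symm
  have hc := MonoidHom.ker_transferSylow_isComplement' Q' hN
  have hnd := MonoidHom.not_dvd_card_ker_transferSylow Q' hN
  obtain ⟨k, hk⟩ := h.card
  have hcard : Nat.card (Q' : Subgroup (centralizer ({x} : Set G))) = Nat.card P := by
    rw [hcoe, ← hQ]
    exact Nat.card_congr (subgroupOfEquivOfLe hle).toEquiv
  have hidx : (MonoidHom.transferSylow Q' hN).ker.index = p ^ k := by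
    rw [hc.symm.index_eq_card, hcard, hk]
  have h1 : ¬ p ∣ orderOf (1 : centralizer ({x} : Set G)) := by
    rw [orderOf_one, Nat.dvd_one]; exact hM.1.one_lt.ne'
  have h2 := BlockSection.sum_principal_of_normal_complement hM hnd hidx h1 h1
  have h3 : (lamB M ↥(centralizer ({x} : Set G)) : ℂ) = (p : ℂ) ^ k := by
    rw [lamB, finsum_mem_eq_finite_toFinset_sum _ (Set.toFinite _)]
    rw [finsum_mem_eq_finite_toFinset_sum _ (Set.toFinite _)] at h2
    push_cast at h2 ⊢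
    rw [← h2]
    refine Finset.sum_congr rfl fun ψ _ => ?_
    rw [← BlockDeg.charDegree_cast_irr, Complex.conj_natCast, sq]
  rw [hk]
  exact_mod_cast h3

open scoped Classical in
/-- the columns of the principal block at elements of `P` -/
theorem Inv.column [Finite G] [Fact p.Prime] (h : Inv p P) (hp : p ≠ 2) {M : Ideal AlgInt}
    (hM : IsPModular p M) {x y : G} (hx : x ∈ P) (hx1 : x ≠ 1) (hy : y ∈ P) :
    ∑ χ ∈ fs (principalBlock M G), (χ : G → ℂ) x * conj ((χ : G → ℂ) y) =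
      if y = x ∨ y = x⁻¹ then (Nat.card P : ℂ) else 0 := by
  obtain ⟨k, hk⟩ := h.order hx
  obtain ⟨l, hl⟩ := h.order hy
  have h1 := column_principal hM hk hl
  rw [finsum_mem_eq_finite_toFinset_sum _ (Set.toFinite _)] at h1
  have h2 : (Set.toFinite (principalBlock M G)).toFinset = fs (principalBlock M G) := by
    ext χ
    simp
  rw [h2] at h1
  rw [h1]
  simp only [h.conj_iff hx hy]
  rw [h.lamB_eq hp hM hx hx1]

/-- the difference of two multiplicities in a restriction -/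
noncomputable def co [Fintype P] (ψ : P → ℂ) (χ : G → ℂ) : ℂ :=
  classInner (fun x : P => χ x) (fun x : P => 1 - ψ x)

theorem co_eq [Fintype P] (ψ : P → ℂ) (χ : G → ℂ) :
    co ψ χ = (Nat.card P : ℂ)⁻¹ * ∑ x : P, χ x * (1 - conj (ψ x)) := by
  rw [co, classInner_def]
  simp only [map_sub, map_one]

theorem co_int [Fintype P] {ψ : P → ℂ} (hψ : IsCharacter P ψ) {χ : G → ℂ} (hχ : IsCharacter G χ) :
    ∃ z : ℤ, co ψ χ = z := by
  obtain ⟨a, ha⟩ := (hχ.restrict P).classInner_nat (isCharacter_one (G := P))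
  obtain ⟨b, hb⟩ := (hχ.restrict P).classInner_nat hψ
  refine ⟨(a : ℤ) - b, ?_⟩
  have h1 : co ψ χ = classInner (fun x : P => χ x) (1 : P → ℂ) - classInner (fun x : P => χ x) ψ := by
    rw [← classInner_sub_right]
    rfl
  rw [h1]
  push_cast
  rw [← ha, ← hb]

theorem orthonormal_sum {X : Type u} [Group X] [Fintype X] (χ ψ : IrrCharacter X) [Decidable (χ = ψ)] :
    ∑ x : X, (χ : X → ℂ) x * conj ((ψ : X → ℂ) x) = if χ = ψ then (Nat.card X : ℂ) else 0 := by
  classical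
  have h := irr_orthonormal χ ψ
  have hX : (Nat.card X : ℂ) ≠ 0 := by exact_mod_cast Nat.card_pos.ne'
  rw [classInner_def] at h
  split_ifs at h ⊢ with h1
  · rw [inv_mul_eq_iff_eq_mul₀ hX, mul_one] at h
    exact h
  · exact (mul_eq_zero.1 h).resolve_left (inv_ne_zero hX)

/-- the conjugate character -/
noncomputable def cj {X : Type u} [Group X] [Finite X] (φ : IrrCharacter X) : IrrCharacter X :=
  ⟨fun x => conj ((φ : X → ℂ) x), φ.2.conj⟩

theorem cj_apply {X : Type u} [Group X] [Finite X] (φ : IrrCharacter X) (x : X) :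
    (cj φ : X → ℂ) x = conj ((φ : X → ℂ) x) := rfl

theorem cj_cj {X : Type u} [Group X] [Finite X] (φ : IrrCharacter X) : cj (cj φ) = φ := by
  apply Subtype.ext
  funext x
  rw [cj_apply, cj_apply, Complex.conj_conj]

open scoped Classical in
theorem Inv.gram [Finite G] [Fact p.Prime] [Fintype P] (h : Inv p P) (hp : p ≠ 2) {M : Ideal AlgInt}
    (hM : IsPModular p M) {ψ φ : IrrCharacter P} (hψ : ψ ≠ triv P) (hφ : φ ≠ triv P) :
    ∑ χ ∈ fs (principalBlock M G), co (ψ : P → ℂ) (χ : G → ℂ) * conj (co (φ : P → ℂ) (χ : G → ℂ)) =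
      2 + (if φ = ψ then 1 else 0) + (if cj φ = ψ then 1 else 0) := by
  have hP0 : (Nat.card P : ℂ) ≠ 0 := by exact_mod_cast Nat.card_pos.ne'
  have hcomm : ∀ a b : P, a * b = b * a := fun a b => Subtype.ext (h.comm a a.2 b b.2)
  have hψ1 : (ψ : P → ℂ) 1 = 1 := ψ.2.one_eq_one_of_comm hcomm
  -- step one
  have e1 : ∀ χ : IrrCharacter G, co (ψ : P → ℂ) (χ : G → ℂ) * conj (co (φ : P → ℂ) (χ : G → ℂ)) =
      (Nat.card P : ℂ)⁻¹ * (Nat.card P : ℂ)⁻¹ * ∑ x : P, ∑ y : P,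
        (1 - conj ((ψ : P → ℂ) x)) * (1 - (φ : P → ℂ) y) * ((χ : G → ℂ) x * conj ((χ : G → ℂ) y)) := by
    intro χ
    rw [co_eq, co_eq, map_mul, map_sum, map_inv₀, Complex.conj_natCast]
    rw [mul_mul_mul_comm, Finset.sum_mul_sum]
    congr 1
    refine Finset.sum_congr rfl fun x _ => Finset.sum_congr rfl fun y _ => ?_
    rw [map_mul, map_sub, map_one, Complex.conj_conj]
    ring
  rw [Finset.sum_congr rfl fun χ _ => e1 χ, ← Finset.mul_sum, Finset.sum_comm]
  have e2 : ∀ x : P, ∑ χ ∈ fs (principalBlock M G), ∑ y : P,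
        (1 - conj ((ψ : P → ℂ) x)) * (1 - (φ : P → ℂ) y) * ((χ : G → ℂ) x * conj ((χ : G → ℂ) y)) =
      (Nat.card P : ℂ) * ((1 - conj ((ψ : P → ℂ) x)) * (2 - (φ : P → ℂ) x - conj ((φ : P → ℂ) x))) := by
    intro x
    rw [Finset.sum_comm]
    simp only [← Finset.mul_sum]
    by_cases hx1 : (x : G) = 1
    · have : x = 1 := Subtype.ext hx1
      subst this
      rw [hψ1]
      simp
    · have hne : x ≠ x⁻¹ := by
        intro h0
        exact hx1 (h.sq_eq_one hp x.2 (congrArg Subtype.val h0))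
      have e3 : ∀ y : P, (1 - conj ((ψ : P → ℂ) x)) * (1 - (φ : P → ℂ) y) *
          ∑ χ ∈ fs (principalBlock M G), (χ : G → ℂ) x * conj ((χ : G → ℂ) y) =
          (if y = x then (1 - conj ((ψ : P → ℂ) x)) * (1 - (φ : P → ℂ) y) * (Nat.card P : ℂ) else 0) +
          (if y = x⁻¹ then (1 - conj ((ψ : P → ℂ) x)) * (1 - (φ : P → ℂ) y) * (Nat.card P : ℂ) else 0) := by
        intro y
        rw [h.column hp hM x.2 hx1 y.2]
        have e4 : ((y : G) = x) ↔ y = x := Subtype.coe_inj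
        have e5 : ((y : G) = (x : G)⁻¹) ↔ y = x⁻¹ := by rw [← Subgroup.coe_inv, Subtype.coe_inj]
        rw [e4, e5]
        by_cases h1 : y = x
        · rw [if_pos (Or.inl h1), if_pos h1, if_neg (by rw [h1]; exact hne), add_zero]
        · by_cases h2 : y = x⁻¹
          · rw [if_pos (Or.inr h2), if_neg h1, if_pos h2, zero_add]
          · rw [if_neg (by tauto), if_neg h1, if_neg h2, mul_zero, add_zero]
      rw [Finset.sum_congr rfl fun y _ => e3 y, Finset.sum_add_distrib, Finset.sum_ite_eq', Finset.sum_ite_eq',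
        if_pos (Finset.mem_univ _), if_pos (Finset.mem_univ _), φ.2.inv]
      ring
  rw [Finset.sum_congr rfl fun x _ => e2 x, ← Finset.mul_sum]
  have e6 : ∀ x : P, (1 - conj ((ψ : P → ℂ) x)) * (2 - (φ : P → ℂ) x - conj ((φ : P → ℂ) x)) =
      2 * (((triv P : IrrCharacter P) : P → ℂ) x * conj (((triv P : IrrCharacter P) : P → ℂ) x)) -
      (φ : P → ℂ) x * conj (((triv P : IrrCharacter P) : P → ℂ) x) -
      ((triv P : IrrCharacter P) : P → ℂ) x * conj ((φ : P → ℂ) x) -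
      2 * (((triv P : IrrCharacter P) : P → ℂ) x * conj ((ψ : P → ℂ) x)) +
      (φ : P → ℂ) x * conj ((ψ : P → ℂ) x) +
      (cj φ : P → ℂ) x * conj ((ψ : P → ℂ) x) := by
    intro x
    simp only [coe_triv, map_one, cj_apply]
    ring
  rw [Finset.sum_congr rfl fun x _ => e6 x]
  simp only [Finset.sum_add_distrib, Finset.sum_sub_distrib, ← Finset.mul_sum]
  rw [orthonormal_sum, orthonormal_sum, orthonormal_sum, orthonormal_sum, orthonormal_sum, orthonormal_sum]
  rw [if_pos rfl, if_neg hφ, if_neg hφ.symm, if_neg hψ.symm]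
  split_ifs <;> field_simp <;> ring

theorem co_triv [Fintype P] {ψ : IrrCharacter P} (hψ : ψ ≠ triv P) :
    co (ψ : P → ℂ) (triv G : G → ℂ) = 1 := by
  classical
  have hP0 : (Nat.card P : ℂ) ≠ 0 := by exact_mod_cast Nat.card_pos.ne'
  rw [co_eq]
  have e1 : ∀ x : P, (triv G : G → ℂ) x * (1 - conj ((ψ : P → ℂ) x)) =
      (triv P : P → ℂ) x * conj ((triv P : P → ℂ) x) - (triv P : P → ℂ) x * conj ((ψ : P → ℂ) x) := by
    intro x
    have h1 : (triv G : G → ℂ) x = 1 := rfl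
    have h2 : (triv P : P → ℂ) x = 1 := rfl
    rw [h1, h2, map_one]
    ring
  rw [Finset.sum_congr rfl fun x _ => e1 x, Finset.sum_sub_distrib, orthonormal_sum, orthonormal_sum,
    if_pos rfl, if_neg hψ.symm, sub_zero, inv_mul_cancel₀ hP0]

theorem Inv.co_cj [Finite G] [Fintype P] (h : Inv p P) (ψ : IrrCharacter P) (χ : IrrCharacter G) :
    co (cj ψ : P → ℂ) (χ : G → ℂ) = co (ψ : P → ℂ) (χ : G → ℂ) := by
  rw [co_eq, co_eq]
  congr 1
  rw [← Equiv.sum_comp (Equiv.inv P)]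
  refine Finset.sum_congr rfl fun x _ => ?_
  obtain ⟨t, ht⟩ := h.inv
  have h1 : (χ : G → ℂ) (x : G)⁻¹ = (χ : G → ℂ) (x : G) := by
    rw [← ht x x.2]
    exact χ.2.isClassFunction _ _
  simp only [Equiv.inv_apply, cj_apply, Subgroup.coe_inv]
  rw [h1, ψ.2.inv, Complex.conj_conj]

theorem co_reg [Finite G] [Fact p.Prime] [Fintype P] (h : Inv p P) {M : Ideal AlgInt}
    (hM : IsPModular p M) {ψ : P → ℂ} (hψ : ψ 1 = 1) {g : G} (hg : ¬ p ∣ orderOf g) :
    ∑ χ ∈ fs (principalBlock M G), co ψ (χ : G → ℂ) * (χ : G → ℂ) g = 0 := by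
  classical
  simp only [co_eq]
  have e1 : ∀ χ : IrrCharacter G, (Nat.card P : ℂ)⁻¹ * (∑ x : P, (χ : G → ℂ) x * (1 - conj (ψ x))) * (χ : G → ℂ) g =
      (Nat.card P : ℂ)⁻¹ * ∑ x : P, (1 - conj (ψ x)) * ((χ : G → ℂ) x * (χ : G → ℂ) g) := by
    intro χ
    rw [mul_assoc, Finset.sum_mul]
    congr 1
    refine Finset.sum_congr rfl fun x _ => ?_
    ring
  rw [Finset.sum_congr rfl fun χ _ => e1 χ, ← Finset.mul_sum, Finset.sum_comm, Finset.sum_eq_zero, mul_zero]
  intro x _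
  rw [← Finset.mul_sum]
  by_cases hx : (x : G) = 1
  · have : x = 1 := Subtype.ext hx
    rw [this, hψ, map_one, sub_self, zero_mul]
  · obtain ⟨k, hk⟩ := h.order x.2
    have h1 := BlockOrth.block_orthogonality hM (B := principalBlock M G) isPBlock_principal
      (g := (x : G)) (h := g⁻¹) (u := x) (v := 1)
      ⟨1, mul_one _, Commute.one_right _, ⟨k, hk⟩, by rw [orderOf_one, Nat.dvd_one]; exact hM.1.one_lt.ne'⟩
      ⟨g⁻¹, one_mul _, Commute.one_left _, ⟨0, by rw [orderOf_one, pow_zero]⟩, by rwa [orderOf_inv]⟩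
      (fun hc => hx (isConj_one_left.1 hc))
    rw [finsum_mem_eq_finite_toFinset_sum _ (Set.toFinite _)] at h1
    have h2 : (Set.toFinite (principalBlock M G)).toFinset = fs (principalBlock M G) := by
      ext χ
      simp
    rw [h2, inv_inv] at h1
    rw [h1, mul_zero]

theorem Inv.cj_ne [Finite G] [Fact p.Prime] (h : Inv p P) (hp : p ≠ 2) {ψ : IrrCharacter P}
    (hψ : ψ ≠ triv P) : cj ψ ≠ ψ := by
  intro hcon
  apply hψ
  have hcomm : ∀ a b : P, a * b = b * a := fun a b => Subtype.ext (h.comm a a.2 b b.2)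
  have hψ1 : (ψ : P → ℂ) 1 = 1 := ψ.2.one_eq_one_of_comm hcomm
  obtain ⟨f, hf⟩ := ψ.2.isCharacter.exists_hom hψ1
  apply Subtype.ext
  funext x
  rw [coe_triv]
  have h1 := ψ.2.isCharacter.mul_conj_of_linear hψ1 x
  rw [← cj_apply, hcon] at h1
  obtain ⟨k, hk⟩ := h.order x.2
  have hodd : Odd (p ^ k) := (hM_odd hp).pow
  have h2 : (ψ : P → ℂ) x ^ (p ^ k) = 1 := by
    rw [hf, ← Units.val_pow_eq_pow_val, ← map_pow]
    have h3 : x ^ p ^ k = 1 := by
      apply Subtype.ext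
      rw [SubmonoidClass.coe_pow, ← hk, pow_orderOf_eq_one]
      rfl
    rw [h3, map_one, Units.val_one]
  obtain ⟨m, hm⟩ := hodd
  rw [hm, pow_succ, pow_mul, sq, h1, one_pow, one_mul] at h2
  exact h2
where
  hM_odd {q : ℕ} [Fact q.Prime] (hq : q ≠ 2) : Odd q := (Fact.out : q.Prime).odd_of_ne_two hq

/-- the shape of the principal block on `p`-regular elements -/
structure Shape (p : ℕ) (M : Ideal AlgInt) (G : Type u) [Group G] (E : IrrCharacter G) (s δ : ℤ) : Prop where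
  mem : E ∈ principalBlock M G
  ne : E ≠ triv G
  s2 : s * s = 1
  d2 : δ * δ = 1
  F_ne : 1 + (s : ℂ) * (E : G → ℂ) 1 ≠ 0
  val : ∀ χ ∈ principalBlock M G, χ ≠ triv G → χ ≠ E → ∀ g : G, ¬ p ∣ orderOf g →
    (χ : G → ℂ) g = δ * (1 + s * (E : G → ℂ) g)

theorem Inv.exists_co_ne [Finite G] [Fact p.Prime] [Fintype P] (h : Inv p P) {M : Ideal AlgInt}
    (hM : IsPModular p M) {χ : IrrCharacter G} (hχ : χ ∈ principalBlock M G) (hχ1 : χ ≠ triv G) :
    ∃ ψ : IrrCharacter P, ψ ≠ triv P ∧ co (ψ : P → ℂ) (χ : G → ℂ) ≠ 0 := by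
  classical
  have := isPrime hM
  by_contra hcon
  push Not at hcon
  have hcomm : ∀ a b : P, a * b = b * a := fun a b => Subtype.ext (h.comm a a.2 b b.2)
  have hlin : ∀ ψ : IrrCharacter P, (ψ : P → ℂ) 1 = 1 := fun ψ => ψ.2.one_eq_one_of_comm hcomm
  have hr := χ.2.isCharacter.restrict P
  have h1 : ∀ ψ : IrrCharacter P, classInner (fun x : P => (χ : G → ℂ) x) (ψ : P → ℂ) =
      classInner (fun x : P => (χ : G → ℂ) x) (triv P : P → ℂ) := by
    intro ψ
    by_cases hψ : ψ = triv P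
    · rw [hψ]
    · have h2 := hcon ψ hψ
      have h3 : co (ψ : P → ℂ) (χ : G → ℂ) =
          classInner (fun x : P => (χ : G → ℂ) x) (triv P : P → ℂ) -
            classInner (fun x : P => (χ : G → ℂ) x) (ψ : P → ℂ) := by
        rw [← classInner_sub_right]
        rfl
      rw [h3, sub_eq_zero] at h2
      exact h2.symm
  have h2 : ∀ x ∈ P, x ≠ 1 → (χ : G → ℂ) x = 0 := by
    intro x hx hx1
    have h3 := hr.isClassFunction.expansion_apply ⟨x, hx⟩
    simp only [h1] at h3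
    rw [← Finset.mul_sum] at h3
    have h4 := sum_degree_mul (⟨x, hx⟩ : P) (fun h0 => hx1 (congrArg Subtype.val h0))
    simp only [hlin, one_mul] at h4
    rw [h4, mul_zero] at h3
    exact h3
  have h3 := BlockDefZero.card_dvd_of_vanish χ.2.isCharacter P h2
  have h4 : (charDegree (χ : G → ℂ)).factorization p = (Nat.card G).factorization p := by
    apply le_antisymm (BlockDefZero.factorization_charDegree_le p χ.2)
    obtain ⟨Q, hQ⟩ := h.syl
    rw [← hQ, Q.card_eq_multiplicity] at h3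
    exact ((Fact.out : p.Prime).pow_dvd_iff_le_factorization (BlockDeg.charDegree_pos χ.2).ne').mp h3
  have h5 := BlockDefZero.blockOf_eq_singleton hM χ h4
  have h6 := block_eq_of_mem isPBlock_principal (isPBlock_blockOf χ) hχ (mem_blockOf_self χ)
  rw [h5] at h6
  have h7 := triv_mem (M := M) (G := G)
  rw [h6] at h7
  exact hχ1 (Set.mem_singleton_iff.1 h7).symm

theorem Inv.shape [Finite G] [Fact p.Prime] (h : Inv p P) (hp : p ≠ 2) {M : Ideal AlgInt}
    (hM : IsPModular p M) (h9 : 9 ≤ Nat.card P) : ∃ E s δ, Shape p M G E s δ := by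
  classical
  have := isPrime hM
  have := Fintype.ofFinite P
  have hcomm : ∀ a b : P, a * b = b * a := fun a b => Subtype.ext (h.comm a a.2 b b.2)
  have hlin : ∀ ψ : IrrCharacter P, (ψ : P → ℂ) 1 = 1 := fun ψ => ψ.2.one_eq_one_of_comm hcomm
  -- the number of characters
  have hcard : Fintype.card (IrrCharacter P) = Nat.card P := by
    have h1 := sum_degree_sq (G := P)
    simp only [hlin, one_pow, Finset.sum_const, Finset.card_univ, nsmul_eq_mul, mul_one] at h1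
    exact_mod_cast h1
  let L := {ψ : IrrCharacter P // ψ ≠ triv P}
  have hint : ∀ (l : L) (χ : IrrCharacter G), ∃ z : ℤ, co (l.1 : P → ℂ) (χ : G → ℂ) = z :=
    fun l χ => co_int l.1.2.isCharacter χ.2.isCharacter
  choose n hn using hint
  let sim : L → L → Prop := fun l m => l.1 = m.1 ∨ cj l.1 = m.1
  have hsim : ∀ l m, sim l m → n l = n m := by
    rintro l m (h1 | h1)
    · have : l = m := Subtype.ext h1
      rw [this]
    · funext χ
      have h2 : ((n l χ : ℤ) : ℂ) = n m χ := by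
        rw [← hn, ← hn, ← h1, h.co_cj]
      exact_mod_cast h2
  have hgram : ∀ l m : L, ∑ χ ∈ fs (principalBlock M G), n l χ * n m χ =
      2 + (if m.1 = l.1 then 1 else 0) + (if cj m.1 = l.1 then 1 else 0) := by
    intro l m
    have h1 := h.gram hp hM l.2 m.2
    simp only [hn, map_intCast] at h1
    have h2 : ((∑ χ ∈ fs (principalBlock M G), n l χ * n m χ : ℤ) : ℂ) =
        ((2 + (if m.1 = l.1 then 1 else 0) + (if cj m.1 = l.1 then 1 else 0) : ℤ) : ℂ) := by
      push_cast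
      rw [← h1]
    exact_mod_cast h2
  have htriv : ∀ l : L, n l (triv G) = 1 := by
    intro l
    have h1 := co_triv (G := G) l.2
    rw [hn] at h1
    exact_mod_cast h1
  have htm : triv G ∈ fs (principalBlock M G) := mem_fs.2 triv_mem
  have h3 : ∀ l, ∑ χ ∈ (fs (principalBlock M G)).erase (triv G), n l χ ^ 2 = 2 := by
    intro l
    have h1 := hgram l l
    rw [if_pos rfl, if_neg (h.cj_ne hp l.2), ← Finset.add_sum_erase _ _ htm, htriv] at h1
    have h2 : ∑ χ ∈ (fs (principalBlock M G)).erase (triv G), n l χ ^ 2 =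
        ∑ χ ∈ (fs (principalBlock M G)).erase (triv G), n l χ * n l χ :=
      Finset.sum_congr rfl fun χ _ => sq _
    rw [h2]
    omega
  have h2 : ∀ l m, ¬ sim l m → ∑ χ ∈ (fs (principalBlock M G)).erase (triv G), n l χ * n m χ = 1 := by
    intro l m hlm
    have h1 := hgram l m
    have h4 : ¬ m.1 = l.1 := fun h0 => hlm (Or.inl h0.symm)
    have h5 : ¬ cj m.1 = l.1 := fun h0 => hlm (Or.inr (by rw [← h0, cj_cj]))
    rw [if_neg h4, if_neg h5, ← Finset.add_sum_erase _ _ htm, htriv, htriv] at h1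
    omega
  -- four inequivalent characters
  have hex : ∀ T : Finset (IrrCharacter P), T.card < 9 → ∃ ψ, ψ ∉ T := by
    intro T hT
    by_contra hcon
    push Not at hcon
    have h1 : T = Finset.univ := Finset.eq_univ_iff_forall.2 hcon
    rw [h1, Finset.card_univ, hcard] at hT
    omega
  obtain ⟨a₁, ha₁⟩ := hex {triv P} (by simp)
  obtain ⟨a₂, ha₂⟩ := hex {triv P, a₁, cj a₁} (lt_of_le_of_lt Finset.card_le_three (by norm_num))
  obtain ⟨a₃, ha₃⟩ := hex {triv P, a₁, cj a₁, a₂, cj a₂} (lt_of_le_of_lt Finset.card_le_five (by norm_num))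
  obtain ⟨a₄, ha₄⟩ := hex ({triv P, a₁, cj a₁, a₂, cj a₂} ∪ {a₃, cj a₃})
    (lt_of_le_of_lt (Finset.card_union_le _ _) (lt_of_le_of_lt (Nat.add_le_add Finset.card_le_five Finset.card_le_two)
      (by norm_num)))
  simp only [Finset.mem_singleton, Finset.mem_insert, Finset.mem_union, not_or] at ha₁ ha₂ ha₃ ha₄
  obtain ⟨⟨b₁, b₂, b₃, b₄, b₅⟩, b₆, b₇⟩ := ha₄
  obtain ⟨c₁, c₂, c₃, c₄, c₅⟩ := ha₃
  obtain ⟨d₁, d₂, d₃⟩ := ha₂
  have hns : ∀ (l m : L), m.1 ≠ l.1 → m.1 ≠ cj l.1 → ¬ sim l m := by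
    rintro l m h1 h2 (h3 | h3)
    · exact h1 h3.symm
    · exact h2 h3.symm
  obtain ⟨E, hE, s, hs, hall⟩ := H25Star.star n sim hsim h3 h2 (l₁ := ⟨a₁, ha₁⟩) (l₂ := ⟨a₂, d₁⟩)
    (l₃ := ⟨a₃, c₁⟩) (l₄ := ⟨a₄, b₁⟩) (hns _ _ d₂ d₃) (hns _ _ c₂ c₃) (hns _ _ b₂ b₃)
    (hns _ _ c₄ c₅) (hns _ _ b₄ b₅) (hns _ _ b₆ b₇)
  rw [Finset.mem_erase] at hE
  have hs0 : s ≠ 0 := by
    rintro rfl
    norm_num at hs
  -- the third character of a column
  have hthird : ∀ l : L, ∃ b ∈ (fs (principalBlock M G)).erase (triv G), b ≠ E ∧ n l b ^ 2 = 1 ∧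
      ∀ i ∈ (fs (principalBlock M G)).erase (triv G), i ≠ E → i ≠ b → n l i = 0 := by
    intro l
    obtain ⟨a, ha, b, hb, hab, q1, q2, q3⟩ := H25Star.two_support (h3 l)
    by_cases h4 : a = E
    · subst h4
      exact ⟨b, hb, hab.symm, q2, q3⟩
    · by_cases h5 : b = E
      · subst h5
        exact ⟨a, ha, hab, q1, fun i hi h6 h7 => q3 i hi h7 h6⟩
      · exfalso
        have h6 := q3 E (Finset.mem_erase.2 hE) (Ne.symm h4) (Ne.symm h5)
        rw [hall] at h6
        exact hs0 h6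
  have hrel : ∀ (l : L) (b : IrrCharacter G), b ∈ (fs (principalBlock M G)).erase (triv G) → b ≠ E →
      (∀ i ∈ (fs (principalBlock M G)).erase (triv G), i ≠ E → i ≠ b → n l i = 0) →
      ∀ g : G, ¬ p ∣ orderOf g → 1 + (s : ℂ) * (E : G → ℂ) g + n l b * (b : G → ℂ) g = 0 := by
    intro l b hb hbE hb0 g hg
    have h4 := co_reg h hM (hlin l.1) hg
    simp only [hn] at h4
    rw [← Finset.add_sum_erase _ _ htm, ← Finset.add_sum_erase _ _ (Finset.mem_erase.2 hE),
      ← Finset.add_sum_erase _ _ (Finset.mem_erase.2 ⟨hbE, hb⟩), Finset.sum_eq_zero, htriv, hall] at h4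
    · have h5 : (triv G : G → ℂ) g = 1 := rfl
      rw [h5] at h4
      rw [← h4]
      push_cast
      ring
    · intro i hi
      rw [Finset.mem_erase, Finset.mem_erase] at hi
      rw [hb0 i hi.2.2 hi.2.1 hi.1]
      push_cast
      ring
  have h1r : ¬ p ∣ orderOf (1 : G) := by
    rw [orderOf_one, Nat.dvd_one]; exact hM.1.one_lt.ne'
  obtain ⟨e, he0, he⟩ := E.2.exists_degree
  have hdeg : ∀ (l : L) (b : IrrCharacter G), b ∈ (fs (principalBlock M G)).erase (triv G) → b ≠ E →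
      n l b ^ 2 = 1 →
      (∀ i ∈ (fs (principalBlock M G)).erase (triv G), i ≠ E → i ≠ b → n l i = 0) →
      1 + s * (e : ℤ) ≠ 0 ∧ n l b = if 0 < 1 + s * (e : ℤ) then -1 else 1 := by
    intro l b hb hbE hb1 hb0
    have h4 := hrel l b hb hbE hb0 1 h1r
    obtain ⟨d, hd0, hd⟩ := b.2.exists_degree
    rw [hd, he] at h4
    have h5 : 1 + s * (e : ℤ) + n l b * (d : ℤ) = 0 := by exact_mod_cast h4
    have h6 : 0 < (d : ℤ) := by positivity
    have h7 : n l b = 1 ∨ n l b = -1 := by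
      have h8 : (n l b - 1) * (n l b + 1) = 0 := by linear_combination hb1
      rcases mul_eq_zero.1 h8 with h9 | h9
      · left; omega
      · right; omega
    rcases h7 with h7 | h7
    · rw [h7] at h5
      rw [h7, if_neg (by omega)]
      exact ⟨by omega, rfl⟩
    · rw [h7] at h5
      rw [h7, if_pos (by omega)]
      exact ⟨by omega, rfl⟩
  refine ⟨E, s, if 0 < 1 + s * (e : ℤ) then 1 else -1, ?_⟩
  have hL := (⟨a₁, ha₁⟩ : L)
  refine ⟨mem_fs.1 hE.2, hE.1, by rw [← sq]; exact hs, by split_ifs <;> norm_num, ?_, ?_⟩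
  · obtain ⟨b, hb, hbE, hb1, hb0⟩ := hthird hL
    have h4 := (hdeg hL b hb hbE hb1 hb0).1
    rw [he]
    exact_mod_cast h4
  · intro χ hχ hχ1 hχE g hg
    obtain ⟨ψ, hψ1, hψ2⟩ := h.exists_co_ne hM hχ hχ1
    obtain ⟨b, hb, hbE, hb1, hb0⟩ := hthird ⟨ψ, hψ1⟩
    have h4 : χ = b := by
      by_contra hne
      apply hψ2
      have h5 := hb0 χ (Finset.mem_erase.2 ⟨hχ1, mem_fs.2 hχ⟩) hχE hne
      have h6 := hn ⟨ψ, hψ1⟩ χ
      rw [h6, h5]
      norm_num
    subst h4
    have h5 := hrel ⟨ψ, hψ1⟩ χ hb hbE hb0 g hg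
    have h6 := (hdeg ⟨ψ, hψ1⟩ χ hb hbE hb1 hb0).2
    rw [h6] at h5
    split_ifs at h5 ⊢
    · push_cast at h5 ⊢
      linear_combination -h5
    · push_cast at h5 ⊢
      linear_combination h5

end Cfsg.Agent.Lib.H25Inv
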