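import Mathlib
import Cfsg.Agent.Lib.BlockKlein
import Cfsg.Agent.Lib.BlockSection
import Cfsg.Agent.Lib.BlockCore
import Cfsg.Agent.Lib.StructConst
import Cfsg.Agent.Lib.OddInv
import Cfsg.Agent.Lib.FrobSchur2
import Cfsg.Agent.Lib.QDFusion3

/-!
# Order formula for a Klein four Sylow 2-subgroup (helper25)
-/

set_option autoImplicit false
set_option linter.all false

namespace Cfsg.Agent.Lib.H25Klein

open Cfsg Cfsg.Agent.Lib.BlockRing Cfsg.Agent.Lib.BlockGA Cfsg.Agent.Lib.BlockCore
open Cfsg.Agent.Lib.BlockIdem Cfsg.Agent.Lib.BlockThird Cfsg.Agent.Lib.BlockSection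
open Cfsg.Agent.Lib.BlockSecond Cfsg.Agent.Lib.CharBasic Cfsg.Agent.Lib.StructConst
open scoped ComplexConjugate
open MonoidAlgebra (single)

universe u

section Section

variable {G : Type u} [Group G] [Finite G] {p : ℕ} {M : Ideal AlgInt}

open scoped Classical in
/-- Sum of a character over a coset `u N`, `N` the normal `p`-complement of `C(u)`. -/
theorem section_sum_eq (hM : IsPModular p M) {u : G} {k : ℕ}
    (hu : orderOf u = p ^ k) {H : Subgroup G} (hmem : ∀ g, g ∈ H ↔ Commute u g) [Fintype H]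
    {N : Subgroup H} [N.Normal] (hN : ¬ p ∣ Nat.card N) {j : ℕ} (hj : N.index = p ^ j)
    (χ : IrrCharacter G) :
    ∑ n ∈ Finset.univ.filter (fun h : H => h ∈ N), (χ : G → ℂ) (u * (n : G)) =
      if χ ∈ principalBlock M G then (Nat.card N : ℂ) * (χ : G → ℂ) u else 0 := by
  have hN0 : (Nat.card N : ℂ) ≠ 0 := by exact_mod_cast Nat.card_pos.ne'
  split_ifs with hχ
  · rw [Finset.sum_congr rfl (fun n hn => eq_of_mem_core hM hu hmem hN
      (Finset.mem_filter.mp hn).2 hχ), Finset.sum_const, nsmul_eq_mul]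
    congr 2
    rw [Nat.card_eq_fintype_card, Fintype.card_subtype]
  · have h1r : ¬ p ∣ orderOf (1 : G) := by
      rw [orderOf_one, Nat.dvd_one]; exact hM.1.one_lt.ne'
    have h1 := not_principal_of_principal hM hu h1r (Commute.one_right u) hmem hχ
    rw [mul_one, eB_of_normal_complement hM hN hj, lin_single_mul_eq, lin_incH, lin_apply] at h1
    have h2 : ∀ h : H, (normE N).coeff h * (χ : G → ℂ) (u * (h : G)) =
        (Nat.card N : ℂ)⁻¹ * (if h ∈ N then (χ : G → ℂ) (u * (h : G)) else 0) := by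
      intro h
      rw [normE, coeff_ofFun]
      split_ifs
      · rfl
      · simp
    rw [Finset.sum_congr rfl (fun h _ => h2 h), ← Finset.mul_sum, ← Finset.sum_filter] at h1
    exact (mul_eq_zero.mp h1).resolve_left (inv_ne_zero hN0)

end Section

section Klein

variable {G : Type u} [Group G] [Finite G]

/-- Basic set-up: `P` a Klein four Sylow 2-subgroup, one class of involutions, `J ∈ P`. -/
structure Data (P : Sylow 2 G) (J : G) (K : Subgroup G) : Prop where
  klein : IsKleinFour (P : Subgroup G)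
  hJP : J ∈ (P : Subgroup G)
  hJ : orderOf J = 2
  isconj : ∀ s t : G, orderOf s = 2 → orderOf t = 2 → IsConj s t
  odd : Odd (Nat.card K)
  cent : ∀ k ∈ K, J * k = k * J
  card : Nat.card (Subgroup.centralizer ({J} : Set G)) = 4 * Nat.card K
  norm : ∀ g, J * g = g * J → ∀ k ∈ K, g * k * g⁻¹ ∈ K

theorem exists_noncentral (P : Sylow 2 G) (hc : Nat.card (P : Subgroup G) = 4)
    (hnc : ¬ ∃ N : Subgroup G, N.Normal ∧ Nat.card N * 4 = Nat.card G) :
    IsKleinFour (P : Subgroup G) ∧
      ∀ s t : G, orderOf s = 2 → orderOf t = 2 → IsConj s t := by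
  classical
  have hf2 : Fact (Nat.Prime 2) := ⟨Nat.prime_two⟩
  -- no normal complement
  have hnpc : ¬ HasNormalPComplement 2 G := by
    rintro ⟨Q, N, hN, hNQ⟩
    apply hnc
    refine ⟨N, hN, ?_⟩
    have h1 := hNQ.card_mul
    have h2 : Nat.card (Q : Subgroup G) = 4 := by
      rw [← hc]
      exact Nat.card_congr (Sylow.equiv Q P).toEquiv
    rw [h2] at h1
    exact h1
  have hK4 : IsKleinFour (P : Subgroup G) := by
    by_contra hcon
    apply hnpc
    apply QDFusion.npc_of_cyclic P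
    have h1 : Nat.card (P : Subgroup G) = 2 ^ 2 := by rw [hc]; norm_num
    by_contra h2
    exact hcon ⟨hc, (not_isCyclic_iff_exponent_eq_prime Nat.prime_two h1).mp h2⟩
  refine ⟨hK4, ?_⟩
  have hab : ∀ x ∈ (P : Subgroup G), ∀ y ∈ (P : Subgroup G), x * y = y * x := by
    intro x hx y hy
    have := IsKleinFour.isMulCommutative (G := (P : Subgroup G))
    exact congrArg Subtype.val (this.is_comm.comm (⟨x, hx⟩ : (P : Subgroup G)) ⟨y, hy⟩)
  -- an element of `N(P)` not centralising
  have hex : ∃ g ∈ Subgroup.normalizer ((P : Subgroup G) : Set G),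
      g ∉ Subgroup.centralizer ((P : Subgroup G) : Set G) := by
    by_contra hcon
    push Not at hcon
    apply hnpc
    exact ⟨P, _, inferInstance, MonoidHom.ker_transferSylow_isComplement' P hcon⟩
  obtain ⟨g, hgN, hgC⟩ := hex
  have hnofix : ∀ z ∈ (P : Subgroup G), z ≠ 1 → ¬ Commute g z := by
    intro z hz hz1 hgz
    apply hgC
    rw [Subgroup.mem_centralizer_iff]
    intro x hx
    exact (BlockKlein.klein_centralize P hK4 hz hz1 hgN hgz x hx).symm
  -- all involutions of `P` are conjugate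
  have hP : ∀ z ∈ (P : Subgroup G), ∀ w ∈ (P : Subgroup G), z ≠ 1 → w ≠ 1 → IsConj z w := by
    intro z hz w hw hz1 hw1
    by_cases hzw : z = w
    · rw [hzw]
    have hg1 : g * z * g⁻¹ ∈ (P : Subgroup G) := (Subgroup.mem_set_normalizer_iff.1 hgN z).1 hz
    have hg2 : g * w * g⁻¹ ∈ (P : Subgroup G) := (Subgroup.mem_set_normalizer_iff.1 hgN w).1 hw
    have hne1 : g * z * g⁻¹ ≠ z := by
      intro h
      apply hnofix z hz hz1
      calc g * z = (g * z * g⁻¹) * g := by group
        _ = z * g := by rw [h]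
    have hne2 : g * w * g⁻¹ ≠ w := by
      intro h
      apply hnofix w hw hw1
      calc g * w = (g * w * g⁻¹) * g := by group
        _ = w * g := by rw [h]
    have hz' : g * z * g⁻¹ ≠ 1 := by
      intro h
      apply hz1
      calc z = g⁻¹ * (g * z * g⁻¹) * g := by group
        _ = 1 := by rw [h]; group
    have hw' : g * w * g⁻¹ ≠ 1 := by
      intro h
      apply hw1
      calc w = g⁻¹ * (g * w * g⁻¹) * g := by group
        _ = 1 := by rw [h]; group
    have hzw1 : z * w ≠ 1 := by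
      intro h
      apply hzw
      have h2 : z * z = 1 := congrArg Subtype.val (IsKleinFour.mul_self (⟨z, hz⟩ : (P : Subgroup G)))
      exact mul_left_cancel (h2.trans h.symm)
    -- trichotomy in `P`
    have htri : ∀ y ∈ (P : Subgroup G), y ≠ 1 → y = z ∨ y = w ∨ y = z * w := by
      intro y hy hy1
      by_contra hcon
      push Not at hcon
      obtain ⟨h1, h2, h3⟩ := hcon
      have := IsKleinFour.eq_mul_of_ne_all (G := (P : Subgroup G)) (x := ⟨z, hz⟩) (y := ⟨w, hw⟩)
        (z := ⟨y, hy⟩) (fun h => hz1 (congrArg Subtype.val h)) (fun h => hw1 (congrArg Subtype.val h))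
        (fun h => hzw (congrArg Subtype.val h)) (fun h => hy1 (congrArg Subtype.val h))
        (fun h => h1 (congrArg Subtype.val h)) (fun h => h2 (congrArg Subtype.val h))
      exact h3 (congrArg Subtype.val this)
    rcases htri _ hg1 hz' with h | h | h
    · exact absurd h hne1
    · rw [isConj_iff]; exact ⟨g, h⟩
    · -- `z ↦ zw`; then `w ↦ z`
      rcases htri _ hg2 hw' with h' | h' | h'
      · refine IsConj.symm ?_
        rw [isConj_iff]; exact ⟨g, h'⟩
      · exact absurd h' hne2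
      · exfalso
        apply hzw
        have : g * z * g⁻¹ = g * w * g⁻¹ := h.trans h'.symm
        have h5 := mul_left_cancel (mul_right_cancel this)
        exact h5
  intro s t hs ht
  have key : ∀ s : G, orderOf s = 2 → ∃ z ∈ (P : Subgroup G), z ≠ 1 ∧ IsConj s z := by
    intro s hs
    have h1 : IsPGroup 2 (Subgroup.zpowers s) := by
      rw [IsPGroup.iff_card]
      exact ⟨1, by rw [Nat.card_zpowers, hs]; rfl⟩
    obtain ⟨Q, hQ⟩ := h1.exists_le_sylow
    obtain ⟨x, hx⟩ := MulAction.exists_smul_eq G Q P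
    refine ⟨x * s * x⁻¹, ?_, ?_, ?_⟩
    · rw [← hx]
      exact Subgroup.mem_map.mpr ⟨s, hQ (Subgroup.mem_zpowers s), rfl⟩
    · intro h
      have : s = 1 := by
        calc s = x⁻¹ * (x * s * x⁻¹) * x := by group
          _ = 1 := by rw [h]; group
      rw [this, orderOf_one] at hs
      norm_num at hs
    · rw [isConj_iff]; exact ⟨x, rfl⟩
  obtain ⟨z, hz, hz1, hsz⟩ := key s hs
  obtain ⟨w, hw, hw1, htw⟩ := key t ht
  exact hsz.trans ((hP z hz w hw hz1 hw1).trans htw.symm)

/-- The data exists. -/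
theorem exists_data (P : Sylow 2 G) (hK4 : IsKleinFour (P : Subgroup G))
    (hconj : ∀ s t : G, orderOf s = 2 → orderOf t = 2 → IsConj s t) {J : G}
    (hJP : J ∈ (P : Subgroup G)) (hJ : orderOf J = 2) :
    ∃ N : Subgroup (Subgroup.centralizer ({J} : Set G)), N.Normal ∧ ¬ 2 ∣ Nat.card N ∧
      N.index = 2 ^ 2 ∧ Data P J (N.map (Subgroup.centralizer ({J} : Set G)).subtype) := by
  set H := Subgroup.centralizer ({J} : Set G) with hH
  have hmem : ∀ g, g ∈ H ↔ Commute J g := by
    intro g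
    rw [hH, Subgroup.mem_centralizer_singleton_iff]
    exact ⟨fun h => h.symm, fun h => h.symm⟩
  have hJ1 : J ≠ 1 := by rintro rfl; simp at hJ
  obtain ⟨N, hN1, hN2, hN3⟩ := BlockKlein.klein_complement P hK4 hJP hJ1 hmem
  refine ⟨N, hN1, hN2, hN3, hK4, hJP, hJ, hconj, ?_, ?_, ?_, ?_⟩
  · have : Nat.card (N.map H.subtype) = Nat.card N :=
      Nat.card_congr (N.equivMapOfInjective _ H.subtype_injective).toEquiv.symm
    rw [this, ← Nat.not_even_iff_odd]
    intro h; exact hN2 (even_iff_two_dvd.mp h)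
  · rintro _ ⟨k, hk, rfl⟩
    exact ((hmem _).mp k.2).eq
  · have : Nat.card (N.map H.subtype) = Nat.card N :=
      Nat.card_congr (N.equivMapOfInjective _ H.subtype_injective).toEquiv.symm
    rw [this, ← N.index_mul_card, hN3]
    norm_num
  · rintro g hg _ ⟨k, hk, rfl⟩
    have hgH : g ∈ H := (hmem g).mpr hg
    exact ⟨⟨g, hgH⟩ * k * ⟨g, hgH⟩⁻¹, hN1.conj_mem k hk _, rfl⟩

variable {P : Sylow 2 G} {J : G} {K : Subgroup G}

theorem Data.sq (h : Data P J K) {x : G} (hx : x ∈ (P : Subgroup G)) : x * x = 1 := by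
  haveI := h.klein
  exact congrArg Subtype.val (IsKleinFour.mul_self (⟨x, hx⟩ : (P : Subgroup G)))

theorem Data.comm (h : Data P J K) {x y : G} (hx : x ∈ (P : Subgroup G))
    (hy : y ∈ (P : Subgroup G)) : x * y = y * x := by
  haveI := h.klein
  have := IsKleinFour.isMulCommutative (G := (P : Subgroup G))
  exact congrArg Subtype.val (this.is_comm.comm (⟨x, hx⟩ : (P : Subgroup G)) ⟨y, hy⟩)

theorem Data.J_ne (h : Data P J K) : J ≠ 1 := by
  rintro rfl
  have := h.hJ
  simp at this

theorem Data.J_sq (h : Data P J K) : J * J = 1 := h.sq h.hJP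

theorem Data.disj (h : Data P J K) {x : G} (hx : x ∈ (P : Subgroup G)) (hK : x ∈ K) : x = 1 := by
  have h1 : orderOf x ∣ 2 := orderOf_dvd_of_pow_eq_one (by rw [pow_two, h.sq hx])
  have h2 : orderOf x ∣ Nat.card K := by
    have := orderOf_dvd_natCard (⟨x, hK⟩ : K)
    rwa [Subgroup.orderOf_mk] at this
  rw [← orderOf_eq_one_iff]
  have h3 := Nat.eq_one_of_dvd_coprimes (Nat.coprime_two_left.mpr h.odd) h1 h2
  exact h3

theorem Data.all (h : Data P J K) {x : G} (hx : x ∈ (P : Subgroup G)) (hx1 : x ≠ 1)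
    (hxJ : x ≠ J) {y : G} (hy : y ∈ (P : Subgroup G)) : y = 1 ∨ y = J ∨ y = x ∨ y = J * x := by
  haveI := h.klein
  by_contra hcon
  push Not at hcon
  obtain ⟨h1, h2, h3, h4⟩ := hcon
  have := IsKleinFour.eq_mul_of_ne_all (G := (P : Subgroup G)) (x := ⟨J, h.hJP⟩) (y := ⟨x, hx⟩)
        (z := ⟨y, hy⟩) (fun h' => h.J_ne (congrArg Subtype.val h')) (fun h => hx1 (congrArg Subtype.val h))
        (fun h => hxJ (congrArg Subtype.val h).symm) (fun h => h1 (congrArg Subtype.val h))
        (fun h => h2 (congrArg Subtype.val h)) (fun h => h3 (congrArg Subtype.val h))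
  exact h4 (congrArg Subtype.val this)

theorem Data.exists_x (h : Data P J K) : ∃ x ∈ (P : Subgroup G), x ≠ 1 ∧ x ≠ J := by
  classical
  haveI := h.klein
  have hc : Nat.card (P : Subgroup G) = 4 := h.klein.card_four
  by_contra hcon
  push Not at hcon
  have h1 : ((P : Subgroup G) : Set G) ⊆ ({1, J} : Finset G) := by
    intro x hx
    by_cases hx1 : x = 1
    · simp [hx1]
    · simp [hcon x hx hx1]
  have h2 : Nat.card ((P : Subgroup G) : Set G) ≤ 2 := by
    have := Set.ncard_le_ncard h1 (Finset.finite_toSet _)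
    rw [Set.ncard_coe_finset] at this
    rw [Nat.card_coe_set_eq]
    exact this.trans Finset.card_le_two
  have h3 : Nat.card ((P : Subgroup G) : Set G) = 4 := hc
  omega

theorem Data.decomp (h : Data P J K) {g : G} (hg : J * g = g * J) :
    ∃ y ∈ (P : Subgroup G), ∃ k ∈ K, g = y * k := by
  classical
  have hKH : ∀ k ∈ K, k ∈ Subgroup.centralizer ({J} : Set G) := by
    intro k hk
    rw [Subgroup.mem_centralizer_singleton_iff]
    exact (h.cent k hk).symm
  have hPH : ∀ y ∈ (P : Subgroup G), y ∈ Subgroup.centralizer ({J} : Set G) := by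
    intro y hy
    rw [Subgroup.mem_centralizer_singleton_iff]
    exact h.comm hy h.hJP
  let f : ↥(P : Subgroup G) × K → Subgroup.centralizer ({J} : Set G) := fun q =>
    ⟨(q.1 : G) * (q.2 : G), Subgroup.mul_mem _ (hPH _ q.1.2) (hKH _ q.2.2)⟩
  have hf : Function.Injective f := by
    rintro ⟨y, k⟩ ⟨y', k'⟩ he
    have h1 : (y : G) * k = y' * k' := congrArg Subtype.val he
    have h2 : (y' : G)⁻¹ * (y : G) = (k' : G) * (k : G)⁻¹ := by
      calc (y' : G)⁻¹ * (y : G) = (y' : G)⁻¹ * ((y : G) * (k : G)) * (k : G)⁻¹ := by group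
        _ = (k' : G) * (k : G)⁻¹ := by rw [h1]; group
    have h3 : (y' : G)⁻¹ * (y : G) = 1 := h.disj ((P : Subgroup G).mul_mem
      ((P : Subgroup G).inv_mem y'.2) y.2)
      (h2 ▸ K.mul_mem k'.2 (K.inv_mem k.2))
    have h4 : (k' : G) * (k : G)⁻¹ = 1 := h2 ▸ h3
    have h5 : (y' : G) = y := inv_mul_eq_one.mp h3
    have h6 : (k' : G) = k := mul_inv_eq_one.mp h4
    exact Prod.ext (Subtype.ext h5.symm) (Subtype.ext h6.symm)
  have hbij : Function.Bijective f := by
    rw [Nat.bijective_iff_injective_and_card]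
    refine ⟨hf, ?_⟩
    rw [Nat.card_prod, h.klein.card_four, h.card]
  obtain ⟨⟨y, k⟩, hyk⟩ := hbij.2 ⟨g, by
    rw [Subgroup.mem_centralizer_singleton_iff]; exact hg.symm⟩
  exact ⟨y, y.2, k, k.2, (congrArg Subtype.val hyk).symm⟩

theorem Data.card_centP (h : Data P J K) :
    Nat.card (Subgroup.centralizer ((P : Subgroup G) : Set G)) =
      4 * Nat.card ↥(K ⊓ Subgroup.centralizer ((P : Subgroup G) : Set G)) := by
  classical
  rw [← h.klein.card_four, ← Nat.card_prod]
  symm
  have hPC : ∀ y ∈ (P : Subgroup G), y ∈ Subgroup.centralizer ((P : Subgroup G) : Set G) := by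
    intro y hy
    rw [Subgroup.mem_centralizer_iff]
    intro z hz
    exact h.comm hz hy
  refine Nat.card_congr (Equiv.ofBijective (fun q : ↥(P : Subgroup G) ×
    ↥(K ⊓ Subgroup.centralizer ((P : Subgroup G) : Set G)) =>
      (⟨(q.1 : G) * (q.2 : G), mul_mem (hPC _ q.1.2) q.2.2.2⟩ :
        Subgroup.centralizer ((P : Subgroup G) : Set G))) ⟨?_, ?_⟩)
  · rintro ⟨y, k⟩ ⟨y', k'⟩ he
    have h1 : (y : G) * k = y' * k' := congrArg Subtype.val he
    have h2 : (y' : G)⁻¹ * (y : G) = (k' : G) * (k : G)⁻¹ := by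
      calc (y' : G)⁻¹ * (y : G) = (y' : G)⁻¹ * ((y : G) * (k : G)) * (k : G)⁻¹ := by group
        _ = (k' : G) * (k : G)⁻¹ := by rw [h1]; group
    have h3 : (y' : G)⁻¹ * (y : G) = 1 := h.disj ((P : Subgroup G).mul_mem
      ((P : Subgroup G).inv_mem y'.2) y.2)
      (h2 ▸ K.mul_mem k'.2.1 (K.inv_mem k.2.1))
    have h4 : (k' : G) * (k : G)⁻¹ = 1 := h2 ▸ h3
    have h5 : (y' : G) = y := inv_mul_eq_one.mp h3
    have h6 : (k' : G) = k := mul_inv_eq_one.mp h4
    exact Prod.ext (Subtype.ext h5.symm) (Subtype.ext h6.symm)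
  · rintro ⟨g, hg⟩
    obtain ⟨y, hy, k, hk, rfl⟩ := h.decomp ((Subgroup.mem_centralizer_iff.mp hg) J h.hJP)
    refine ⟨(⟨y, hy⟩, ⟨k, hk, ?_⟩), rfl⟩
    have : k = y⁻¹ * (y * k) := by group
    rw [this]
    exact Subgroup.mul_mem _ (Subgroup.inv_mem _ (hPC y hy)) hg

/-- `t = |K : C_K(P)|` is the number of elements of `K` inverted by `y ∈ P ∖ ⟨J⟩`. -/
theorem Data.card_inverted (h : Data P J K) {y : G} (hy : y ∈ (P : Subgroup G)) (hy1 : y ≠ 1)
    (hyJ : y ≠ J) : Nat.card K = Nat.card ↥(K ⊓ Subgroup.centralizer ((P : Subgroup G) : Set G)) *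
      Nat.card (Cfsg.invertedBy K y) := by
  have h1 := OddInv.card_eq_mul y (h.sq hy) K h.odd (fun k hk => h.norm y (h.comm h.hJP hy) k hk)
  rw [h1]
  congr 1
  have : K ⊓ Subgroup.centralizer ({y} : Set G) =
      K ⊓ Subgroup.centralizer ((P : Subgroup G) : Set G) := by
    ext k
    simp only [Subgroup.mem_inf]
    apply and_congr_right
    intro hk
    rw [Subgroup.mem_centralizer_singleton_iff, Subgroup.mem_centralizer_iff]
    constructor
    · intro hky z hz
      have hJk := h.cent k hk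
      have hyk : y * k = k * y := hky.symm
      have hz' := h.all hy hy1 hyJ hz
      rcases hz' with rfl | rfl | rfl | rfl
      · simp
      · exact hJk
      · exact hyk
      · rw [mul_assoc, hyk, ← mul_assoc, hJk, mul_assoc]
    · intro hall
      exact (hall y hy).symm
  rw [this]

/-- involutions in the coset `y K` -/
theorem Data.card_invol (h : Data P J K) {y : G} (hy : y ∈ (P : Subgroup G)) (hy1 : y ≠ 1) :
    Nat.card {g : G // orderOf g = 2 ∧ y * g ∈ K} = Nat.card (Cfsg.invertedBy K y) := by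
  have hyy := h.sq hy
  have hyi : y⁻¹ = y := inv_eq_of_mul_eq_one_right hyy
  refine Nat.card_congr
    { toFun := fun g => ⟨y * g.1, g.2.2, ?_⟩
      invFun := fun k => ⟨y * k.1, ?_, ?_⟩
      left_inv := fun g => Subtype.ext (by
        show y * (y * g.1) = g.1
        rw [← mul_assoc, hyy, one_mul])
      right_inv := fun k => Subtype.ext (by
        show y * (y * k.1) = k.1
        rw [← mul_assoc, hyy, one_mul]) }
  · -- `y (y g) y⁻¹ = (y g)⁻¹`
    have hg : g.1 * g.1 = 1 := by
      have := pow_orderOf_eq_one g.1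
      rwa [g.2.1, pow_two] at this
    have hgi : g.1⁻¹ = g.1 := inv_eq_of_mul_eq_one_right hg
    rw [mul_inv_rev, hgi, hyi, ← mul_assoc, hyy, one_mul]
  · obtain ⟨hk, hki⟩ := k.2
    have h1 : (y * k.1) * (y * k.1) = 1 := by
      calc (y * k.1) * (y * k.1) = (y * k.1 * y⁻¹) * (y * y) * k.1 := by group
        _ = 1 := by rw [hki, hyy]; group
    apply orderOf_eq_prime (by rw [pow_two]; exact h1)
    intro h2
    apply hy1
    apply h.disj hy
    have : y = (k.1)⁻¹ := eq_inv_of_mul_eq_one_left h2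
    rw [this]
    exact K.inv_mem hk
  · rw [← mul_assoc, hyy, one_mul]; exact k.2.1

/-- Pairs of involutions with product in `J K`. -/
theorem Data.card_pairs (h : Data P J K) {x : G} (hx : x ∈ (P : Subgroup G)) (hx1 : x ≠ 1)
    (hxJ : x ≠ J) :
    Nat.card {q : G × G // orderOf q.1 = 2 ∧ orderOf q.2 = 2 ∧ J * (q.1 * q.2) ∈ K} =
      2 * (Nat.card {g : G // orderOf g = 2 ∧ x * g ∈ K} *
        Nat.card {g : G // orderOf g = 2 ∧ (J * x) * g ∈ K}) := by
  classical
  have hJJ := h.J_sq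
  have hxx := h.sq hx
  have hJi : J⁻¹ = J := inv_eq_of_mul_eq_one_right hJJ
  have hJxP : J * x ∈ (P : Subgroup G) := mul_mem h.hJP hx
  have hxJc := h.comm hx h.hJP
  have hJK : J ∉ K := fun hJK => h.J_ne (h.disj h.hJP hJK)
  -- the characterisation
  have hback : ∀ y ∈ (P : Subgroup G), ∀ i j : G, y * i ∈ K → (J * y) * j ∈ K →
      J * (i * j) ∈ K := by
    intro y hy i j hi hj
    have hyy := h.sq hy
    have hyJ := h.comm hy h.hJP
    -- i = y k, j = J y k'
    have e : J * (i * j) = y * (y * i) * y⁻¹ * (J * y * j) := by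
      have e1 : y * (y * i) = i := by rw [← mul_assoc, hyy, one_mul]
      have hyi : y⁻¹ = y := inv_eq_of_mul_eq_one_right hyy
      have hJi' : J * i = i * J := by
        have h1 := h.cent _ hi
        calc J * i = J * (y * (y * i)) := by rw [e1]
          _ = (J * y) * (y * i) := by rw [mul_assoc]
          _ = (y * J) * (y * i) := by rw [hyJ]
          _ = y * (J * (y * i)) := by rw [mul_assoc]
          _ = y * ((y * i) * J) := by rw [h1]
          _ = (y * (y * i)) * J := by group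
          _ = i * J := by rw [e1]
      rw [e1, hyi]
      calc J * (i * j) = (J * i) * j := by rw [mul_assoc]
        _ = i * J * j := by rw [hJi']
        _ = i * (y * y) * J * j := by rw [hyy, mul_one]
        _ = i * y * (y * J) * j := by group
        _ = i * y * (J * y) * j := by rw [hyJ]
        _ = i * y * (J * y * j) := by group
    rw [e]
    exact K.mul_mem (h.norm y (h.comm h.hJP hy) _ hi) hj
  have hforw : ∀ i j : G, orderOf i = 2 → orderOf j = 2 → J * (i * j) ∈ K →
      (x * i ∈ K ∧ (J * x) * j ∈ K) ∨ ((J * x) * i ∈ K ∧ x * j ∈ K) := by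
    intro i j hi hj hij
    have hii : i * i = 1 := by
      have := pow_orderOf_eq_one i
      rwa [hi, pow_two] at this
    have hjj : j * j = 1 := by
      have := pow_orderOf_eq_one j
      rwa [hj, pow_two] at this
    have hiinv : i⁻¹ = i := inv_eq_of_mul_eq_one_right hii
    have hjinv : j⁻¹ = j := inv_eq_of_mul_eq_one_right hjj
    set k := J * (i * j) with hk
    have hij' : i * j = J * k := by rw [hk, ← mul_assoc, hJJ, one_mul]
    have hcomm : Commute J k := h.cent k hij
    -- `(J k)^m = J`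
    have hpow : (i * j) ^ (Nat.card K) = J := by
      rw [hij', hcomm.mul_pow]
      have h1 : k ^ Nat.card K = 1 := by
        have := pow_card_eq_one' (x := (⟨k, hij⟩ : K))
        exact congrArg Subtype.val this
      obtain ⟨m, hm⟩ := h.odd
      rw [h1, mul_one, hm, pow_succ, pow_mul, pow_two, hJJ, one_pow, one_mul]
    have hinv : i * (i * j) * i⁻¹ = (i * j)⁻¹ := by
      rw [mul_inv_rev, hjinv, hiinv, ← mul_assoc, hii, one_mul]
    have hiJ : i * J * i⁻¹ = J := by
      have h1 : i * (i * j) ^ (Nat.card K) * i⁻¹ = ((i * j) ^ (Nat.card K))⁻¹ := by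
        rw [← conj_pow, hinv, inv_pow]
      rw [hpow, hJi] at h1
      exact h1
    have hiJ' : J * i = i * J := by
      calc J * i = (i * J * i⁻¹) * i := by rw [hiJ]
        _ = i * J := by group
    have hjJ' : J * j = j * J := by
      have e : j = i * (J * k) := by rw [← hij', ← mul_assoc, hii, one_mul]
      rw [e]
      calc J * (i * (J * k)) = (J * i) * J * k := by group
        _ = i * J * (J * k) := by rw [hiJ']; group
        _ = i * J * (k * J) := by rw [hcomm.eq]
        _ = i * (J * k) * J := by group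
    obtain ⟨y, hy, k0, hk0, he⟩ := h.decomp hiJ'
    have hyy := h.sq hy
    have hyJ := h.comm hy h.hJP
    have hyi' : y * i = k0 := by rw [he, ← mul_assoc, hyy, one_mul]
    -- `(J y) j ∈ K`
    have hj' : (J * y) * j ∈ K := by
      have hk1 : k = J * y * k0 * j := by rw [hk, he]; group
      have e : (J * y) * j = k * (j⁻¹ * k0⁻¹ * j⁻¹⁻¹) := by
        rw [hk1]; group
      rw [e]
      exact K.mul_mem hij (h.norm j⁻¹ (by rw [hjinv]; exact hjJ') _ (K.inv_mem hk0))
    have hyiK : y * i ∈ K := by rw [hyi']; exact hk0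
    rcases h.all hx hx1 hxJ hy with rfl | rfl | rfl | rfl
    · exfalso
      rw [one_mul] at hyiK
      have := OddInv.eq_one_of_sq_eq_one h.odd hyiK hii
      rw [this, orderOf_one] at hi
      norm_num at hi
    · exfalso
      rw [hJJ, one_mul] at hj'
      have := OddInv.eq_one_of_sq_eq_one h.odd hj' hjj
      rw [this, orderOf_one] at hj
      norm_num at hj
    · exact Or.inl ⟨hyiK, hj'⟩
    · right
      refine ⟨hyiK, ?_⟩
      rwa [← mul_assoc, hJJ, one_mul] at hj'
  -- count
  let A : Set G := {g | orderOf g = 2 ∧ x * g ∈ K}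
  let B : Set G := {g | orderOf g = 2 ∧ (J * x) * g ∈ K}
  have hW : {q : G × G | orderOf q.1 = 2 ∧ orderOf q.2 = 2 ∧ J * (q.1 * q.2) ∈ K} =
      (A ×ˢ B) ∪ (B ×ˢ A) := by
    ext ⟨i, j⟩
    simp only [Set.mem_setOf_eq, Set.mem_union, Set.mem_prod, A, B]
    constructor
    · rintro ⟨hi, hj, hij⟩
      rcases hforw i j hi hj hij with ⟨h1, h2⟩ | ⟨h1, h2⟩
      · exact Or.inl ⟨⟨hi, h1⟩, ⟨hj, h2⟩⟩
      · exact Or.inr ⟨⟨hi, h1⟩, ⟨hj, h2⟩⟩
    · rintro (⟨⟨hi, h1⟩, ⟨hj, h2⟩⟩ | ⟨⟨hi, h1⟩, ⟨hj, h2⟩⟩)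
      · exact ⟨hi, hj, hback x hx i j h1 h2⟩
      · refine ⟨hi, hj, hback (J * x) hJxP i j h1 ?_⟩
        rwa [← mul_assoc, hJJ, one_mul]
  have hdisj : Disjoint (A ×ˢ B) (B ×ˢ A) := by
    rw [Set.disjoint_left]
    rintro ⟨i, j⟩ ⟨⟨hi, h1⟩, -⟩ ⟨⟨_, h2⟩, -⟩
    apply hJK
    have : J = (J * x * i) * (x * i)⁻¹ := by group
    rw [this]
    exact K.mul_mem h2 (K.inv_mem h1)
  have h1 : Nat.card {q : G × G // orderOf q.1 = 2 ∧ orderOf q.2 = 2 ∧ J * (q.1 * q.2) ∈ K} =
      Set.ncard {q : G × G | orderOf q.1 = 2 ∧ orderOf q.2 = 2 ∧ J * (q.1 * q.2) ∈ K} := rfl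
  rw [h1, hW, Set.ncard_union_eq hdisj (Set.toFinite _) (Set.toFinite _), Set.ncard_prod,
    Set.ncard_prod]
  have hA : Nat.card {g : G // orderOf g = 2 ∧ x * g ∈ K} = A.ncard := rfl
  have hB : Nat.card {g : G // orderOf g = 2 ∧ (J * x) * g ∈ K} = B.ncard := rfl
  rw [hA, hB]
  ring

open scoped Classical in
theorem Data.conjCount_eq (h : Data P J K) [Fintype G] (g : G) :
    conjCount J g = if orderOf g = 2 then (Nat.card (Subgroup.centralizer ({J} : Set G)) : ℂ) else 0 := by
  unfold conjCount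
  split_ifs with hg
  · obtain ⟨x, hx⟩ := isConj_iff.1 (h.isconj J g h.hJ hg)
    congr 1
    rw [← Fintype.card_subtype, ← Nat.card_eq_fintype_card]
    refine Nat.card_congr
      { toFun := fun b => ⟨x⁻¹ * b.1, ?_⟩
        invFun := fun z => ⟨x * z.1, ?_⟩
        left_inv := fun b => Subtype.ext (by simp)
        right_inv := fun z => Subtype.ext (by simp) }
    · rw [Subgroup.mem_centralizer_singleton_iff]
      have h1 : b.1 * J * (b.1)⁻¹ = x * J * x⁻¹ := b.2.trans hx.symm
      calc x⁻¹ * b.1 * J = x⁻¹ * (b.1 * J * (b.1)⁻¹) * b.1 := by group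
        _ = x⁻¹ * (x * J * x⁻¹) * b.1 := by rw [h1]
        _ = J * (x⁻¹ * b.1) := by group
    · have h1 := (Subgroup.mem_centralizer_singleton_iff.mp z.2)
      show x * z.1 * J * (x * z.1)⁻¹ = g
      rw [← hx]
      calc x * z.1 * J * (x * z.1)⁻¹ = x * (z.1 * J) * (z.1)⁻¹ * x⁻¹ := by group
        _ = x * J * x⁻¹ := by rw [h1]; group
  · have h1 : (Finset.univ.filter fun b : G => b * J * b⁻¹ = g) = ∅ := by
      rw [Finset.filter_eq_empty_iff]
      intro b _ hb
      apply hg
      rw [← hb, ← h.hJ]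
      exact BlockThird.orderOf_conj J b
    rw [h1]
    simp

open scoped Classical in
/-- the indicator function of `J K`. -/
noncomputable def Find (J : G) (K : Subgroup G) (g : G) : ℂ := if J * g ∈ K then 1 else 0

open scoped Classical in
theorem Data.lhs (h : Data P J K) [Fintype G] :
    ∑ a, ∑ b, Find J K (a * J * a⁻¹ * (b * J * b⁻¹)⁻¹) =
      (Nat.card (Subgroup.centralizer ({J} : Set G)) : ℂ) ^ 2 *
        (Nat.card {q : G × G // orderOf q.1 = 2 ∧ orderOf q.2 = 2 ∧ J * (q.1 * q.2) ∈ K} : ℂ) := by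
  set c : ℂ := (Nat.card (Subgroup.centralizer ({J} : Set G)) : ℂ) with hc
  have h1 : ∀ a : G, ∑ b, Find J K (a * J * a⁻¹ * (b * J * b⁻¹)⁻¹) =
      ∑ j, conjCount J j * Find J K (a * J * a⁻¹ * j⁻¹) :=
    fun a => sum_conj_eq J (fun j => Find J K (a * J * a⁻¹ * j⁻¹))
  rw [Finset.sum_congr rfl (fun a _ => h1 a),
    sum_conj_eq J (fun i => ∑ j, conjCount J j * Find J K (i * j⁻¹))]
  simp only [h.conjCount_eq, ← hc, Finset.mul_sum]
  rw [Nat.card_eq_fintype_card, Fintype.card_subtype, Finset.card_filter]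
  push_cast
  rw [Fintype.sum_prod_type, Finset.mul_sum]
  refine Finset.sum_congr rfl fun i _ => ?_
  rw [Finset.mul_sum]
  refine Finset.sum_congr rfl fun j _ => ?_
  by_cases hi : orderOf i = 2
  · by_cases hj : orderOf j = 2
    · have hjj : j⁻¹ = j := by
        apply inv_eq_of_mul_eq_one_right
        have := pow_orderOf_eq_one j
        rwa [hj, pow_two] at this
      unfold Find
      rw [if_pos hi, if_pos hj, hjj]
      by_cases hK : J * (i * j) ∈ K
      · rw [if_pos hK, if_pos ⟨hi, hj, hK⟩]; ring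
      · rw [if_neg hK, if_neg (fun hh => hK hh.2.2)]; ring
    · have : ¬ (orderOf i = 2 ∧ orderOf j = 2 ∧ J * (i * j) ∈ K) := fun hh => hj hh.2.1
      rw [if_neg this, if_neg hj]; ring
  · have : ¬ (orderOf i = 2 ∧ orderOf j = 2 ∧ J * (i * j) ∈ K) := fun hh => hi hh.1
    rw [if_neg this, if_neg hi]; ring

open scoped Classical in
theorem inner_Find {M : Ideal AlgInt} (hM : IsPModular 2 M) [Fintype G]
    (hJ : orderOf J = 2) [Fintype (Subgroup.centralizer ({J} : Set G))]
    {N : Subgroup (Subgroup.centralizer ({J} : Set G))}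
    (hN1 : N.Normal) (hN2 : ¬ 2 ∣ Nat.card N) (hN3 : N.index = 2 ^ 2) (χ : IrrCharacter G) :
    (Nat.card G : ℂ) * classInner (Find J (N.map (Subgroup.centralizer ({J} : Set G)).subtype))
      (χ : G → ℂ) = if χ ∈ principalBlock M G then (Nat.card N : ℂ) * conj ((χ : G → ℂ) J) else 0 := by
  have hmem : ∀ g, g ∈ Subgroup.centralizer ({J} : Set G) ↔ Commute J g := by
    intro g
    rw [Subgroup.mem_centralizer_singleton_iff]
    exact ⟨fun h => h.symm, fun h => h.symm⟩
  have hJJ : J * J = 1 := by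
    have := pow_orderOf_eq_one J
    rwa [hJ, pow_two] at this
  have h1 := section_sum_eq hM (u := J) (k := 1) (by rw [hJ]; rfl) hmem hN2 hN3 χ
  have h2 := congrArg (starRingEnd ℂ) h1
  rw [classInner_def, mul_inv_cancel_left₀ (by exact_mod_cast Nat.card_pos.ne')]
  have h3 : (starRingEnd ℂ) (if χ ∈ principalBlock M G then (Nat.card N : ℂ) * (χ : G → ℂ) J else 0) =
      if χ ∈ principalBlock M G then (Nat.card N : ℂ) * conj ((χ : G → ℂ) J) else 0 := by
    split_ifs
    · rw [map_mul, map_natCast]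
    · rw [map_zero]
  rw [← h3, ← h2, map_sum]
  have h4 : ∀ g : G, Find J (N.map (Subgroup.centralizer ({J} : Set G)).subtype) g * conj ((χ : G → ℂ) g) =
      if J * g ∈ N.map (Subgroup.centralizer ({J} : Set G)).subtype then conj ((χ : G → ℂ) g) else 0 := by
    intro g
    unfold Find
    split_ifs <;> simp
  rw [Finset.sum_congr rfl (fun g _ => h4 g), ← Finset.sum_filter]
  symm
  refine Finset.sum_bij (fun n _ => J * (n : G)) ?_ ?_ ?_ ?_
  · intro n hn
    rw [Finset.mem_filter] at hn ⊢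
    refine ⟨Finset.mem_univ _, n, hn.2, ?_⟩
    rw [← mul_assoc, hJJ, one_mul]
    rfl
  · intro n _ n' _ he
    exact Subtype.ext (mul_left_cancel he)
  · intro g hg
    rw [Finset.mem_filter] at hg
    obtain ⟨-, n, hn, hng⟩ := hg
    refine ⟨n, Finset.mem_filter.mpr ⟨Finset.mem_univ _, hn⟩, ?_⟩
    have : (n : G) = J * g := hng
    rw [this, ← mul_assoc, hJJ, one_mul]
  · intro n _
    rfl

open scoped Classical in
/-- **Brauer's order formula**, general form: sum over the principal 2-block. -/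
theorem formula {M : Ideal AlgInt} (hM : IsPModular 2 M) [Fintype G] (P : Sylow 2 G)
    (hK4 : IsKleinFour (P : Subgroup G))
    (hconj : ∀ s t : G, orderOf s = 2 → orderOf t = 2 → IsConj s t) {J : G}
    (hJP : J ∈ (P : Subgroup G)) (hJ : orderOf J = 2) :
    (Nat.card G : ℂ) * (Nat.card (Subgroup.centralizer ((P : Subgroup G) : Set G)) : ℂ) ^ 2 *
      (∑ χ : IrrCharacter G, if χ ∈ principalBlock M G then
        conj ((χ : G → ℂ) J) * (χ : G → ℂ) J * conj ((χ : G → ℂ) J) / (χ : G → ℂ) 1 else 0) =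
      8 * (Nat.card (Subgroup.centralizer ({J} : Set G)) : ℂ) ^ 3 := by
  have hfin : Fintype (Subgroup.centralizer ({J} : Set G)) := Fintype.ofFinite _
  obtain ⟨N, hN1, hN2, hN3, hD⟩ := exists_data P hK4 hconj hJP hJ
  set K := N.map (Subgroup.centralizer ({J} : Set G)).subtype with hK
  have hKN : Nat.card K = Nat.card N :=
    Nat.card_congr (N.equivMapOfInjective _ (Subgroup.centralizer ({J} : Set G)).subtype_injective).toEquiv.symm
  have h1 := sum_sum_conj (Find J K) J J
  rw [hD.lhs] at h1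
  obtain ⟨x, hx, hx1, hxJ⟩ := hD.exists_x
  have hJx1 : J * x ≠ 1 := by
    intro h
    apply hxJ
    have := hD.J_sq
    exact (mul_left_cancel (this.trans h.symm)).symm
  have hJxJ : J * x ≠ J := by
    intro h
    exact hx1 (mul_eq_left.mp h)
  have hJxP : J * x ∈ (P : Subgroup G) := mul_mem hJP hx
  have h2 := hD.card_pairs hx hx1 hxJ
  rw [hD.card_invol hx hx1, hD.card_invol hJxP hJx1] at h2
  have h3 := hD.card_inverted hx hx1 hxJ
  have h4 := hD.card_inverted hJxP hJx1 hJxJ
  have h5 := hD.card_centP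
  have h6 := hD.card
  set cN := Nat.card ↥(K ⊓ Subgroup.centralizer ((P : Subgroup G) : Set G)) with hcN
  set t := Nat.card (Cfsg.invertedBy K x) with ht
  set t' := Nat.card (Cfsg.invertedBy K (J * x)) with ht'
  have hcN0 : 0 < cN := Nat.card_pos
  have htt : t' = t := by
    rw [h3] at h4
    exact (Nat.eq_of_mul_eq_mul_left hcN0 h4).symm
  rw [htt] at h2
  have hG0 : (Nat.card G : ℂ) ≠ 0 := by exact_mod_cast Nat.card_pos.ne'
  have hK0 : (Nat.card K : ℂ) ≠ 0 := by exact_mod_cast Nat.card_pos.ne'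
  -- evaluate the right-hand side
  have h7 : (Nat.card G : ℂ) ^ 2 * ∑ χ : IrrCharacter G,
      classInner (Find J K) (χ : G → ℂ) * (χ : G → ℂ) J * conj ((χ : G → ℂ) J) / (χ : G → ℂ) 1 =
      (Nat.card G : ℂ) * (Nat.card K : ℂ) * ∑ χ : IrrCharacter G, (if χ ∈ principalBlock M G then
        conj ((χ : G → ℂ) J) * (χ : G → ℂ) J * conj ((χ : G → ℂ) J) / (χ : G → ℂ) 1 else 0) := by
    rw [sq, mul_assoc, mul_assoc]
    congr 1
    rw [Finset.mul_sum, Finset.mul_sum]
    refine Finset.sum_congr rfl fun χ _ => ?_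
    have h8 := inner_Find hM hJ hN1 hN2 hN3 χ
    rw [← hK] at h8
    calc (Nat.card G : ℂ) * (classInner (Find J K) (χ : G → ℂ) * (χ : G → ℂ) J *
          conj ((χ : G → ℂ) J) / (χ : G → ℂ) 1) =
        ((Nat.card G : ℂ) * classInner (Find J K) (χ : G → ℂ)) * (χ : G → ℂ) J *
          conj ((χ : G → ℂ) J) / (χ : G → ℂ) 1 := by ring
      _ = _ := by
        rw [h8, hKN]
        split_ifs
        · ring
        · simp
  rw [h7, h2] at h1
  set S : ℂ := ∑ χ : IrrCharacter G, (if χ ∈ principalBlock M G then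
        conj ((χ : G → ℂ) J) * (χ : G → ℂ) J * conj ((χ : G → ℂ) J) / (χ : G → ℂ) 1 else 0) with hS
  rw [h5, h6]
  rw [h6] at h1
  -- now purely numerical
  have hKt : (Nat.card K : ℂ) = cN * t := by exact_mod_cast h3
  have hcN0' : (cN : ℂ) ≠ 0 := by exact_mod_cast hcN0.ne'
  push_cast at h1 ⊢
  have h9 : (Nat.card G : ℂ) * S = 32 * (Nat.card K : ℂ) * (t : ℂ) ^ 2 := by
    apply mul_left_cancel₀ hK0
    linear_combination -h1
  have h10 : (t : ℂ) * cN = Nat.card K := by rw [hKt]; ring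
  calc (Nat.card G : ℂ) * (4 * (cN : ℂ)) ^ 2 * S = 16 * (cN : ℂ) ^ 2 * ((Nat.card G : ℂ) * S) := by ring
    _ = 512 * (Nat.card K : ℂ) * ((t : ℂ) * cN) ^ 2 := by rw [h9]; ring
    _ = _ := by rw [h10]; ring

open scoped Classical in
/-- Sum over the section for the square root counting function. -/
theorem fs_formula {M : Ideal AlgInt} (hM : IsPModular 2 M) [Fintype G] (P : Sylow 2 G)
    (hK4 : IsKleinFour (P : Subgroup G))
    (hconj : ∀ s t : G, orderOf s = 2 → orderOf t = 2 → IsConj s t) {J : G}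
    (hJP : J ∈ (P : Subgroup G)) (hJ : orderOf J = 2) :
    ∑ χ : IrrCharacter G, (if χ ∈ principalBlock M G then
      FrobSchur.fsInd (χ : G → ℂ) * (χ : G → ℂ) J else 0) = 0 := by
  have hfin : Fintype (Subgroup.centralizer ({J} : Set G)) := Fintype.ofFinite _
  obtain ⟨N, hN1, hN2, hN3, hD⟩ := exists_data P hK4 hconj hJP hJ
  have hmem : ∀ g, g ∈ Subgroup.centralizer ({J} : Set G) ↔ Commute J g := by
    intro g
    rw [Subgroup.mem_centralizer_singleton_iff]
    exact ⟨fun h => h.symm, fun h => h.symm⟩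
  have hN0 : (Nat.card N : ℂ) ≠ 0 := by exact_mod_cast Nat.card_pos.ne'
  -- no square roots
  have hno : ∀ n ∈ N, IsEmpty {s : G // s * s = J * (n : G)} := by
    intro n hn
    constructor
    rintro ⟨s, hs⟩
    -- the 2-part of `J n` is `J`
    have hodd : Odd (Nat.card N) := by
      rw [← Nat.not_even_iff_odd]
      intro h; exact hN2 (even_iff_two_dvd.mp h)
    have hnN : (n : G) ^ Nat.card N = 1 := by
      have := pow_card_eq_one' (x := (⟨n, hn⟩ : N))
      have h2 := congrArg Subtype.val this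
      exact congrArg Subtype.val h2
    have hJn : Commute J (n : G) := (hmem _).mp n.2
    have h1 : (s ^ Nat.card N) * (s ^ Nat.card N) = J := by
      rw [← pow_add, ← two_mul, pow_mul, pow_two, hs, hJn.mul_pow, hnN, mul_one]
      obtain ⟨m, hm⟩ := hodd
      have hJJ := hD.J_sq
      rw [hm, pow_succ, pow_mul, pow_two, hJJ, one_pow, one_mul]
    -- an element of order 4 in a group with Klein four Sylow subgroup
    set w := s ^ Nat.card N with hw
    have hw4 : orderOf w = 2 ^ 2 := by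
      apply orderOf_eq_prime_pow
      · rw [pow_one, pow_two, h1]; exact hD.J_ne
      · have : w ^ 2 ^ (1 + 1) = (w * w) * (w * w) := by
          have : (2 : ℕ) ^ (1 + 1) = 2 + 2 := by norm_num
          rw [this, pow_add, pow_two]
        rw [this, h1, hD.J_sq]
    have h2 : IsPGroup 2 (Subgroup.zpowers w) := by
      rw [IsPGroup.iff_card]
      exact ⟨2, by rw [Nat.card_zpowers, hw4]⟩
    obtain ⟨Q, hQ⟩ := h2.exists_le_sylow
    obtain ⟨g, hg⟩ := MulAction.exists_smul_eq G Q P
    have h3 : g * w * g⁻¹ ∈ (P : Subgroup G) := by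
      rw [← hg]
      exact Subgroup.mem_map.mpr ⟨w, hQ (Subgroup.mem_zpowers w), rfl⟩
    have h4 := hD.sq h3
    have h5 : (g * w * g⁻¹) * (g * w * g⁻¹) = g * (w * w) * g⁻¹ := by group
    rw [h5, h1] at h4
    apply hD.J_ne
    calc J = g⁻¹ * (g * J * g⁻¹) * g := by group
      _ = 1 := by rw [h4]; group
  have h1 : ∑ n ∈ Finset.univ.filter (fun h : Subgroup.centralizer ({J} : Set G) => h ∈ N),
      (Nat.card {s : G // s * s = J * (n : G)} : ℂ) = 0 := by
    refine Finset.sum_eq_zero fun n hn => ?_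
    have := hno n (Finset.mem_filter.mp hn).2
    rw [Nat.card_of_isEmpty]
    simp
  simp only [FrobSchur.card_sq_eq] at h1
  rw [Finset.sum_comm] at h1
  apply mul_left_cancel₀ hN0
  rw [mul_zero, Finset.mul_sum]
  refine Eq.trans (Finset.sum_congr rfl fun χ _ => ?_) h1
  rw [← Finset.mul_sum, section_sum_eq hM (u := J) (k := 1) (by rw [hJ]; rfl) hmem hN2 hN3 χ]
  split_ifs
  · ring
  · simp

end Klein

end Cfsg.Agent.Lib.H25Klein
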