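import Cfsg.Agent.Lib.H25TriB

/-!
# The group `3^3 : 2^2` inside the alternating group of degree nine (helper25)
-/

set_option autoImplicit false
set_option linter.all false
set_option maxHeartbeats 400000

namespace Cfsg.Agent.Lib.H25Tri

open Cfsg Cfsg.Agent.Lib.H25Nine

universe u v

abbrev S3 := Equiv.Perm (Fin 3)

/-- the 3-cycle -/
def c3 : S3 := Equiv.swap 0 1 * Equiv.swap 1 2

/-- a transposition -/
def s3 : S3 := Equiv.swap 0 1

def blk : (Fin 3 → S3) →* Equiv.Perm (Fin 9) where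
  toFun p := ((finProdFinEquiv : Fin 3 × Fin 3 ≃ Fin 9).symm.trans (Equiv.prodCongrRight p)).trans
    (finProdFinEquiv : Fin 3 × Fin 3 ≃ Fin 9)
  map_one' := by
    ext x
    have : ∀ y : Fin 3 × Fin 3, (Equiv.prodCongrRight (1 : Fin 3 → S3)) y = y := fun ⟨a, b⟩ => rfl
    simp [this]
  map_mul' p q := by
    ext x
    have : ∀ y : Fin 3 × Fin 3, (Equiv.prodCongrRight (p * q)) y =
      (Equiv.prodCongrRight p) ((Equiv.prodCongrRight q) y) := fun ⟨a, b⟩ => rfl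
    simp [this]

theorem blk_inj : Function.Injective blk := by
  rw [injective_iff_map_eq_one]
  intro p hp
  funext k
  ext x
  have h := congrArg (fun f : Equiv.Perm (Fin 9) => (finProdFinEquiv : Fin 3 × Fin 3 ≃ Fin 9).symm
    (f ((finProdFinEquiv : Fin 3 × Fin 3 ≃ Fin 9) (k, x)))) hp
  simp only [blk, MonoidHom.coe_mk, OneHom.coe_mk, Equiv.trans_apply, Equiv.symm_apply_apply,
    Equiv.Perm.coe_one, id_eq, Equiv.prodCongrRight_apply] at h
  have := congrArg Prod.snd h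
  simpa using congrArg Fin.val this

/-- product of the signs -/
def sg (p : Fin 3 → S3) : ℤˣ := Equiv.Perm.sign (p 0) * Equiv.Perm.sign (p 1) * Equiv.Perm.sign (p 2)

theorem sg_mul (p q : Fin 3 → S3) : sg (p * q) = sg p * sg q := by
  simp only [sg, Pi.mul_apply, map_mul]
  exact mul_mul_mul_comm' _ _ _ _ _ _
where
  mul_mul_mul_comm' (a b c d e f : ℤˣ) : a * b * (c * d) * (e * f) = a * c * e * (b * d * f) := by
    simp only [mul_assoc, mul_left_comm, mul_comm]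

theorem sg_one : sg 1 = 1 := by simp [sg]

/-- coordinates -/
def co (k : Fin 3) (x : S3) : Fin 3 → S3 := fun m => if m = k then x else 1

/-- `x` off coordinate `k` -/
def off (k : Fin 3) (x : S3) : Fin 3 → S3 := fun m => if m = k then 1 else x

set_option maxRecDepth 20000 in
theorem S3_six : ∀ x : S3, x ^ 6 = 1 := by decide
set_option maxRecDepth 20000 in
theorem S3_three : ∀ x : S3, x ^ 3 = 1 ↔ (x = 1 ∨ x = c3 ∨ x = c3⁻¹) := by decide
theorem S3_form' : ∀ x : S3, x = 1 ∨ x = c3 ∨ x = c3 * c3 ∨ x = s3 ∨ x = c3 * s3 ∨ x = c3 * c3 * s3 := by decide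
theorem S3_form (x : S3) : ∃ a : Fin 3, ∃ e : Fin 2, x = c3 ^ (a : ℕ) * s3 ^ (e : ℕ) := by
  rcases S3_form' x with h | h | h | h | h | h
  · exact ⟨0, 0, by simp [h]⟩
  · exact ⟨1, 0, by simp [h]⟩
  · exact ⟨2, 0, by simp [h, sq]⟩
  · exact ⟨0, 1, by simp [h]⟩
  · exact ⟨1, 1, by simp [h]⟩
  · exact ⟨2, 1, by simp [h, sq]⟩
set_option maxRecDepth 20000 in
theorem S3_comm : ∀ x : S3, x * c3 = c3 * x → x ^ 3 = 1 := by decide
theorem order_c3 : orderOf c3 = 3 := by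
  apply orderOf_eq_prime <;> decide

/-- a model of a subgroup -/
structure Model {G : Type u} [Group G] (H : Subgroup G) where
  Φ : H →* (Fin 3 → S3)
  inj : Function.Injective Φ
  sgn : ∀ h, sg (Φ h) = 1
  surj : ∀ p, sg p = 1 → ∃ h, Φ h = p

def K9 : Subgroup (Equiv.Perm (Fin 9)) :=
  Subgroup.closure ({Equiv.swap (0 : Fin 9) 1 * Equiv.swap 1 2, Equiv.swap (3 : Fin 9) 4 * Equiv.swap 4 5, Equiv.swap (6 : Fin 9) 7 * Equiv.swap 7 8,
        Equiv.swap (0 : Fin 9) 1 * Equiv.swap 3 4, Equiv.swap (0 : Fin 9) 1 * Equiv.swap 6 7} : Set (Equiv.Perm (Fin 9)))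

theorem g0 : Equiv.swap (0 : Fin 9) 1 * Equiv.swap 1 2 = blk (co 0 c3) := by decide
theorem g1 : Equiv.swap (3 : Fin 9) 4 * Equiv.swap 4 5 = blk (co 1 c3) := by decide
theorem g2 : Equiv.swap (6 : Fin 9) 7 * Equiv.swap 7 8 = blk (co 2 c3) := by decide
theorem g3 : Equiv.swap (0 : Fin 9) 1 * Equiv.swap 3 4 = blk (off 2 s3) := by decide
theorem g4 : Equiv.swap (0 : Fin 9) 1 * Equiv.swap 6 7 = blk (off 1 s3) := by decide

theorem K9_le {x : Equiv.Perm (Fin 9)} (hx : x ∈ K9) : ∃ p, sg p = 1 ∧ blk p = x := by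
  unfold K9 at hx
  induction hx using Subgroup.closure_induction with
  | mem x hx =>
    simp only [Set.mem_insert_iff, Set.mem_singleton_iff] at hx
    rcases hx with rfl | rfl | rfl | rfl | rfl
    · exact ⟨_, by decide, g0.symm⟩
    · exact ⟨_, by decide, g1.symm⟩
    · exact ⟨_, by decide, g2.symm⟩
    · exact ⟨_, by decide, g3.symm⟩
    · exact ⟨_, by decide, g4.symm⟩
  | one => exact ⟨1, sg_one, map_one _⟩
  | mul x y _ _ hx hy =>
    obtain ⟨p, hp, rfl⟩ := hx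
    obtain ⟨q, hq, rfl⟩ := hy
    exact ⟨p * q, by rw [sg_mul, hp, hq]; rfl, map_mul _ _ _⟩
  | inv x _ hx =>
    obtain ⟨p, hp, rfl⟩ := hx
    refine ⟨p⁻¹, ?_, map_inv _ _⟩
    have := sg_mul p p⁻¹
    rw [mul_inv_cancel, sg_one, hp, one_mul] at this
    exact this.symm

theorem le_K9 (p : Fin 3 → S3) (hp : sg p = 1) : blk p ∈ K9 := by
  have m0 : blk (co 0 c3) ∈ K9 := Subgroup.subset_closure (by rw [← g0]; simp)
  have m1 : blk (co 1 c3) ∈ K9 := Subgroup.subset_closure (by rw [← g1]; simp)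
  have m2 : blk (co 2 c3) ∈ K9 := Subgroup.subset_closure (by rw [← g2]; simp)
  have m3 : blk (off 2 s3) ∈ K9 := Subgroup.subset_closure (by rw [← g3]; simp)
  have m4 : blk (off 1 s3) ∈ K9 := Subgroup.subset_closure (by rw [← g4]; simp)
  obtain ⟨a0, e0, h0⟩ := S3_form (p 0)
  obtain ⟨a1, e1, h1⟩ := S3_form (p 1)
  obtain ⟨a2, e2, h2⟩ := S3_form (p 2)
  have hpe : p = co 0 c3 ^ (a0 : ℕ) * co 1 c3 ^ (a1 : ℕ) * co 2 c3 ^ (a2 : ℕ) *
      (fun k => if k = 0 then s3 ^ (e0 : ℕ) else if k = 1 then s3 ^ (e1 : ℕ) else s3 ^ (e2 : ℕ)) := by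
    funext k
    fin_cases k
    · simp [co, h0]
    · simp [co, h1]
    · simp [co, h2]
  have hs : blk (fun k => if k = 0 then s3 ^ (e0 : ℕ) else if k = 1 then s3 ^ (e1 : ℕ) else s3 ^ (e2 : ℕ)) ∈ K9 := by
    have hsg : sg (fun k => if k = 0 then s3 ^ (e0 : ℕ) else if k = 1 then s3 ^ (e1 : ℕ) else s3 ^ (e2 : ℕ)) = 1 := by
      have e1' : sg (co 0 c3) = 1 := by decide
      have e2' : sg (co 1 c3) = 1 := by decide
      have e3' : sg (co 2 c3) = 1 := by decide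
      have key : ∀ (q : Fin 3 → S3) (n : ℕ), sg q = 1 → sg (q ^ n) = 1 := by
        intro q n hq
        induction n with
        | zero => rw [pow_zero, sg_one]
        | succ n ih => rw [pow_succ, sg_mul, ih, hq]; rfl
      rw [hpe, sg_mul, sg_mul, sg_mul, key _ _ e1', key _ _ e2', key _ _ e3'] at hp
      simpa using hp
    have dec : ∀ e0 e1 e2 : Fin 2, sg (fun k => if k = 0 then s3 ^ (e0 : ℕ) else if k = 1 then s3 ^ (e1 : ℕ) else s3 ^ (e2 : ℕ)) = 1 →
      (fun k : Fin 3 => if k = 0 then s3 ^ (e0 : ℕ) else if k = 1 then s3 ^ (e1 : ℕ) else s3 ^ (e2 : ℕ)) = 1 ∨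
      (fun k : Fin 3 => if k = 0 then s3 ^ (e0 : ℕ) else if k = 1 then s3 ^ (e1 : ℕ) else s3 ^ (e2 : ℕ)) = off 2 s3 ∨
      (fun k : Fin 3 => if k = 0 then s3 ^ (e0 : ℕ) else if k = 1 then s3 ^ (e1 : ℕ) else s3 ^ (e2 : ℕ)) = off 1 s3 ∨
      (fun k : Fin 3 => if k = 0 then s3 ^ (e0 : ℕ) else if k = 1 then s3 ^ (e1 : ℕ) else s3 ^ (e2 : ℕ)) = off 2 s3 * off 1 s3 := by
      decide
    rcases dec e0 e1 e2 hsg with h | h | h | h
    · rw [h, map_one]; exact one_mem _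
    · rw [h]; exact m3
    · rw [h]; exact m4
    · rw [h, map_mul]; exact mul_mem m3 m4
  rw [hpe, map_mul, map_mul, map_mul, map_pow, map_pow, map_pow]
  exact mul_mem (mul_mem (mul_mem (pow_mem m0 _) (pow_mem m1 _)) (pow_mem m2 _)) hs

/-- the model coming from an isomorphism -/
theorem exists_model {G : Type u} [Group G] (H : Subgroup G) (e : H ≃* K9) : Nonempty (Model H) := by
  classical
  choose f hf1 hf2 using fun x : K9 => K9_le x.2
  refine ⟨⟨⟨⟨fun h => f (e h), ?_⟩, ?_⟩, ?_, ?_, ?_⟩⟩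
  · apply blk_inj
    rw [hf2, map_one, map_one]; rfl
  · intro x y
    apply blk_inj
    show blk (f (e (x * y))) = blk (f (e x) * f (e y))
    rw [map_mul blk, hf2, hf2, hf2, map_mul]; rfl
  · intro x y hxy
    have h : f (e x) = f (e y) := hxy
    apply e.injective
    apply Subtype.ext
    rw [← hf2 (e x), ← hf2 (e y), h]
  · intro h; exact hf1 (e h)
  · intro p hp
    refine ⟨e.symm ⟨blk p, le_K9 p hp⟩, ?_⟩
    apply blk_inj
    show blk (f (e (e.symm ⟨blk p, le_K9 p hp⟩))) = blk p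
    rw [hf2, MulEquiv.apply_symm_apply]

end Cfsg.Agent.Lib.H25Tri
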