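import Cfsg.Agent.Lib.H25TriC
import Cfsg.Agent.Lib.StrongEmb

/-!
# Strongly embedded `3^3 : 2^2` (helper25)
-/

set_option autoImplicit false
set_option linter.all false
set_option maxHeartbeats 400000

namespace Cfsg.Agent.Lib.H25Tri

open Cfsg Cfsg.Agent.Lib.H25Nine

universe u v

variable {G : Type u} [Group G] [Finite G] {H T : Subgroup G}

set_option maxRecDepth 20000 in
theorem S3_cyc (x y : S3) (hx : x ^ 3 = 1) (hy : y ^ 3 = 1) : x * y = y * x := by
  rw [S3_three] at hx hy
  rcases hx with rfl | rfl | rfl <;> rcases hy with rfl | rfl | rfl <;> decide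

theorem pow_six (M : Model H) (h : H) : h ^ 6 = 1 := by
  apply M.inj
  rw [map_pow, map_one]
  funext k
  rw [Pi.pow_apply, S3_six]; rfl

theorem cube (M : Model H) (h : H) {n : ℕ} (hn : h ^ 3 ^ n = 1) : h ^ 3 = 1 := by
  have h1 := orderOf_dvd_of_pow_eq_one (pow_six M h)
  have h2 := orderOf_dvd_of_pow_eq_one hn
  have h3 : (orderOf h).Coprime 2 := Nat.Coprime.coprime_dvd_left h2 (Nat.Coprime.pow_left n (by norm_num))
  have h4 : orderOf h ∣ 3 := h3.dvd_of_dvd_mul_right (by simpa using h1)
  exact orderOf_dvd_iff_pow_eq_one.mp h4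

/-- `T` is the set of elements of order dividing three -/
theorem mem_T_iff (M : Model H) (hTH : T ≤ H) (hT : Nat.card T = 27) (h : H) : (h : G) ∈ T ↔ h ^ 3 = 1 := by
  classical
  have := Fintype.ofFinite G
  have h1 : ∀ h : H, (h : G) ∈ T → h ^ 3 = 1 := by
    intro h hh
    have h2 : h ^ 3 ^ 3 = 1 := by
      apply Subtype.ext
      have : (⟨(h : G), hh⟩ : T) ^ 27 = 1 := by rw [← hT]; exact pow_card_eq_one'
      have := congrArg (Subtype.val (p := fun x => x ∈ T)) this
      simpa using this
    exact cube M h h2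
  refine ⟨h1 h, fun hh => ?_⟩
  -- counting
  set A : Finset H := Finset.univ.filter (fun h => h ^ 3 = 1) with hA
  set B : Finset H := Finset.univ.filter (fun h : H => (h : G) ∈ T) with hB
  have hBA : B ⊆ A := by
    intro x hx
    rw [hB, Finset.mem_filter] at hx
    rw [hA, Finset.mem_filter]
    exact ⟨Finset.mem_univ _, h1 x hx.2⟩
  have hBc : B.card = 27 := by
    rw [← hT, Nat.card_eq_fintype_card, hB]
    rw [← Fintype.card_subtype]
    apply Fintype.card_congr
    exact { toFun := fun x => ⟨(x : H), x.2⟩, invFun := fun x => ⟨⟨(x : G), hTH x.2⟩, x.2⟩, left_inv := fun x => rfl, right_inv := fun x => rfl }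
  have hAc : A.card ≤ 27 := by
    let F : H → (Fin 3 → Fin 3) := fun h k => if M.Φ h k = 1 then 0 else if M.Φ h k = c3 then 1 else 2
    have : A.card ≤ (Finset.univ : Finset (Fin 3 → Fin 3)).card := by
      apply Finset.card_le_card_of_injOn F (fun _ _ => Finset.mem_coe.mpr (Finset.mem_univ _))
      intro x hx y hy hxy
      rw [Finset.mem_coe, hA, Finset.mem_filter] at hx hy
      apply M.inj
      funext k
      have hk := congrFun hxy k
      simp only [F] at hk
      have ex : M.Φ x k ^ 3 = 1 := by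
        have := congrFun (congrArg M.Φ hx.2) k
        rw [map_pow, map_one] at this
        exact this
      have ey : M.Φ y k ^ 3 = 1 := by
        have := congrFun (congrArg M.Φ hy.2) k
        rw [map_pow, map_one] at this
        exact this
      rw [S3_three] at ex ey
      have n1 : c3 ≠ 1 := by decide
      have n2 : c3⁻¹ ≠ 1 := by decide
      have n3 : c3⁻¹ ≠ c3 := by decide
      rcases ex with ex | ex | ex <;> rcases ey with ey | ey | ey <;> rw [ex, ey] at hk ⊢ <;>
        simp [n1, n2, n3] at hk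
    refine le_trans this ?_
    simp
  have hAB : B = A := Finset.eq_of_subset_of_card_le hBA (by rw [hBc]; exact hAc)
  have : h ∈ B := by
    rw [hAB, hA, Finset.mem_filter]
    exact ⟨Finset.mem_univ _, hh⟩
  rw [hB, Finset.mem_filter] at this
  exact this.2

theorem tis (M : Model H) (hTH : T ≤ H) (hT : Nat.card T = 27) (hN : Subgroup.normalizer (T : Set G) = H)
    (hC : ∀ t ∈ T, t ≠ 1 → Subgroup.centralizer ({t} : Set G) ≤ H) : TIS T where
  sylow := by
    have hf : Fact (Nat.Prime 3) := ⟨Nat.prime_three⟩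
    have hp : IsPGroup 3 T := IsPGroup.iff_card.mpr ⟨3, by rw [hT]; norm_num⟩
    obtain ⟨P, hP⟩ := hp.exists_le_sylow
    refine ⟨P, ?_⟩
    apply StrongEmb.isSylow_of_normalizer (p := 3) (Q := T) _ P.isPGroup' hP
    intro R hR hTR hRN
    refine le_antisymm ?_ hTR
    intro r hr
    rw [hN] at hRN
    obtain ⟨n, hn⟩ := hR ⟨r, hr⟩
    have hn' : (⟨r, hRN hr⟩ : H) ^ 3 ^ n = 1 := by
      apply Subtype.ext
      have := congrArg (Subtype.val (p := fun x => x ∈ R)) hn
      simpa using this
    exact (mem_T_iff M hTH hT ⟨r, hRN hr⟩).mpr (cube M _ hn')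
  exp := by
    intro s hs
    have := (mem_T_iff M hTH hT ⟨s, hTH hs⟩).mp hs
    exact congrArg Subtype.val this
  comm := by
    intro s hs t ht
    have h1 := (mem_T_iff M hTH hT ⟨s, hTH hs⟩).mp hs
    have h2 := (mem_T_iff M hTH hT ⟨t, hTH ht⟩).mp ht
    have : (⟨s, hTH hs⟩ : H) * ⟨t, hTH ht⟩ = ⟨t, hTH ht⟩ * ⟨s, hTH hs⟩ := by
      apply M.inj
      rw [map_mul, map_mul]
      funext k
      apply S3_cyc
      · have := congrFun (congrArg M.Φ h1) k
        rw [map_pow, map_one] at this
        exact this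
      · have := congrFun (congrArg M.Φ h2) k
        rw [map_pow, map_one] at this
        exact this
    exact congrArg Subtype.val this
  cent := by
    intro s hs hs1
    rw [hN]
    exact hC s hs hs1

section main

set_option maxRecDepth 20000 in
theorem S3_inv2 : ∀ x : S3, x * x = 1 → x = 1 ∨ Equiv.Perm.sign x = -1 := by decide

set_option maxRecDepth 20000 in
theorem S3_sq : ∀ x : S3, (x = c3 ∨ x = c3⁻¹) → x * x ≠ 1 ∧ x * x * x = 1 := by decide

set_option maxRecDepth 20000 in
theorem exists_coord : ∀ k : Fin 3, ∀ x : S3, sg (fun m => if m = k then x else if m = k + 1 then (if Equiv.Perm.sign x = 1 then 1 else s3) else 1) = 1 := by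
  decide

theorem s3c3 : s3 * (c3 * s3⁻¹ * c3⁻¹) = c3 := by decide

theorem off_sg : ∀ k : Fin 3, sg (off k s3) = 1 := by decide
theorem co_sg : ∀ k : Fin 3, sg (co k c3) = 1 := by decide

theorem fix_coord (p : Fin 3 → S3) (hp : p * p = 1) (hs : sg p = 1) : ∃ m, p m = 1 := by
  by_contra hcon
  push Not at hcon
  have h : ∀ m, Equiv.Perm.sign (p m) = -1 := by
    intro m
    have := congrFun hp m
    exact (S3_inv2 (p m) this).resolve_left (hcon m)
  rw [sg, h 0, h 1, h 2] at hs
  exact absurd hs (by decide)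

theorem exists_K (M : Model H) (hTH : T ≤ H) (hT : Nat.card T = 27) (hN : Subgroup.normalizer (T : Set G) = H)
    (hC : ∀ t ∈ T, t ≠ 1 → Subgroup.centralizer ({t} : Set G) ≤ H) (k : Fin 3) (i : H) (hi : M.Φ i = off k s3) :
    ∃ K : Subgroup G, K.Normal ∧ (i : G) ∈ K ∧ ∀ h : H, M.Φ h k = c3 → (h : G) ∉ K := by
  have htis := tis M hTH hT hN hC
  -- square of an element with nontrivial cycle at k
  have hsq : ∀ h : H, (M.Φ h k = c3 ∨ M.Φ h k = c3⁻¹) → ((h * h : H) : G) ∈ T ∧ ((h * h : H) : G) ≠ 1 := by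
    intro h hh
    constructor
    · rw [mem_T_iff M hTH hT, ← sq, ← pow_mul]
      exact pow_six M h
    · intro h1
      have h2 : h * h = 1 := Subtype.ext h1
      have h3 := congrFun (congrArg M.Φ h2) k
      rw [map_mul, map_one] at h3
      exact (S3_sq _ hh).1 h3
  have hti : ∀ t ∈ T, t ≠ 1 → ∀ g : G, g * t * g⁻¹ ∈ T → g ∈ H := by
    intro t ht ht1 g hg
    rw [← hN]
    exact htis.ti ht ht1 hg
  have hTI : ∀ h : H, (M.Φ h k = c3 ∨ M.Φ h k = c3⁻¹) → ∀ g : G, g * (h : G) * g⁻¹ ∈ H → g ∈ H := by
    intro h hh g hg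
    obtain ⟨h1, h2⟩ := hsq h hh
    apply hti _ h1 h2
    have h3 : g * ((h * h : H) : G) * g⁻¹ = (((⟨_, hg⟩ : H) ^ 2 : H) : G) := by
      push_cast
      rw [sq]
      simp [mul_assoc]
    rw [h3, mem_T_iff M hTH hT, ← pow_mul]
    exact pow_six M _
  apply key H ((Pi.evalMonoidHom (fun _ : Fin 3 => S3) k).comp M.Φ) _ (by rw [Nat.card_eq_fintype_card]; decide)
    c3 s3 order_c3 (by decide) hTI i (by simp [hi, off]) _ _
  · intro x
    obtain ⟨h, hh⟩ := M.surj _ (exists_coord k x)
    refine ⟨h, ?_⟩
    simp [hh]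
  · apply M.inj
    rw [map_mul, hi, map_one]
    funext m
    simp only [Pi.mul_apply, off, Pi.one_apply]
    split_ifs
    · rfl
    · decide
  · intro x y hx hy h hxy hh
    obtain ⟨h1, h2⟩ := hsq h hh
    have hi2 : (i : G) * i = 1 := by
      have : i * i = 1 := by
        apply M.inj
        rw [map_mul, hi, map_one]
        funext m
        simp only [Pi.mul_apply, off, Pi.one_apply]
        split_ifs
        · rfl
        · decide
      exact congrArg Subtype.val this
    have inv2 : ∀ z : G, IsConj (i : G) z → z * z = 1 := by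
      intro z hz
      obtain ⟨g, rfl⟩ := isConj_iff.mp hz
      calc g * (i : G) * g⁻¹ * (g * (i : G) * g⁻¹) = g * ((i : G) * i) * g⁻¹ := by group
        _ = 1 := by rw [hi2]; group
    have hx2 := inv2 x hx
    have hy2 := inv2 y hy
    have hxi : x⁻¹ = x := by rw [inv_eq_iff_mul_eq_one]; exact hx2
    have hyi : y⁻¹ = y := by rw [inv_eq_iff_mul_eq_one]; exact hy2
    have hxH : x ∈ H := by
      apply hti _ h1 h2
      have : x * ((h * h : H) : G) * x⁻¹ = ((h * h : H) : G)⁻¹ := by
        push_cast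
        rw [hxy]
        simp only [mul_inv_rev, hxi, hyi]
        calc x * (x * y * (x * y)) * x = (x * x) * y * x * y * x := by group
          _ = _ := by rw [hx2]; group
      rw [this]
      exact T.inv_mem h1
    have hyH : y ∈ H := by
      have : y = x * (h : G) := by
        rw [hxy, ← mul_assoc, hx2, one_mul]
      rw [this]
      exact H.mul_mem hxH h.2
    -- each conjugate of i in H has trivial coordinate
    have hco : ∀ z : H, IsConj (i : G) z → M.Φ z k = 1 := by
      intro z hz
      have hz2 : z * z = 1 := Subtype.ext (inv2 z hz)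
      have h3 : M.Φ z * M.Φ z = 1 := by rw [← map_mul, hz2, map_one]
      obtain ⟨m, hm⟩ := fix_coord _ h3 (M.sgn z)
      obtain ⟨u, hu⟩ := M.surj _ (co_sg k)
      obtain ⟨u', hu'⟩ := M.surj _ (co_sg m)
      have mem : ∀ (u : H) (k : Fin 3), M.Φ u = co k c3 → (u : G) ∈ T ∧ (u : G) ≠ 1 := by
        intro u k hu
        constructor
        · rw [mem_T_iff M hTH hT]
          apply M.inj
          rw [map_pow, hu, map_one]
          funext m
          simp only [Pi.pow_apply, co, Pi.one_apply]
          split_ifs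
          · decide
          · rfl
        · intro h
          have h' : u = 1 := Subtype.ext h
          rw [h', map_one] at hu
          have := congrFun hu k
          simp only [Pi.one_apply, co, if_true] at this
          exact absurd this (by decide)
      have comm : ∀ (z u : H) (m : Fin 3), M.Φ z m = 1 → M.Φ u = co m c3 → (z : G) * u = u * z := by
        intro z u m hz hu
        have : z * u = u * z := by
          apply M.inj
          rw [map_mul, map_mul, hu]
          funext j
          simp only [Pi.mul_apply, co]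
          split_ifs with hj
          · subst hj; rw [hz]; rfl
          · rw [mul_one, one_mul]
        exact congrArg Subtype.val this
      obtain ⟨n, hn, hn'⟩ := fuse htis hz (mem u k hu).1 (mem u k hu).2
        (comm i u k (by rw [hi]; simp [off]) hu) (mem u' m hu').1 (mem u' m hu').2 (comm z u' m hm hu')
      rw [hN] at hn
      have h4 : (⟨n, hn⟩ : H) * z * (⟨n, hn⟩ : H)⁻¹ = i := Subtype.ext hn'
      have h5 := congrFun (congrArg M.Φ h4) k
      rw [map_mul, map_mul, map_inv, hi] at h5
      simp only [Pi.mul_apply, Pi.inv_apply, off, if_true] at h5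
      exact conj_eq_one_iff.mp h5
    have h6 : h = ⟨x, hxH⟩ * ⟨y, hyH⟩ := Subtype.ext hxy
    have h7 : M.Φ h k = 1 := by
      rw [h6, map_mul, Pi.mul_apply, hco ⟨x, hxH⟩ hx, hco ⟨y, hyH⟩ hy, one_mul]
    simp only [MonoidHom.comp_apply, Pi.evalMonoidHom_apply] at hh
    rw [h7] at hh
    rcases hh with h | h
    · exact absurd h (by decide)
    · exact absurd h (by decide)

theorem main27 (M : Model H) (hTH : T ≤ H) (hT : Nat.card T = 27) (hN : Subgroup.normalizer (T : Set G) = H)
    (hC : ∀ t ∈ T, t ≠ 1 → Subgroup.centralizer ({t} : Set G) ≤ H) : H = ⊤ := by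
  classical
  have htis := tis M hTH hT hN hC
  have hinv : ∀ k : Fin 3, ∃ i : H, M.Φ i = off k s3 := fun k => M.surj _ (off_sg k)
  have hc : ∀ k : Fin 3, ∃ i : H, M.Φ i = co k c3 := fun k => M.surj _ (co_sg k)
  choose i hi using hinv
  choose a ha using hc
  choose K hKn hiK hK using fun k => exists_K M hTH hT hN hC k (i k) (hi k)
  have aK : ∀ m k, m ≠ k → (a m : G) ∈ K k := by
    intro m k hmk
    have h1 : i k * (a m * (i k)⁻¹ * (a m)⁻¹) = a m := by
      apply M.inj
      simp only [map_mul, map_inv, ha, hi]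
      funext j
      simp only [Pi.mul_apply, Pi.inv_apply, co, off]
      by_cases hj : j = m
      · subst hj
        rw [if_neg hmk, if_pos rfl]
        exact s3c3
      · rw [if_neg hj]
        split_ifs
        · simp
        · simp
    have h2 : ((i k * (a m * (i k)⁻¹ * (a m)⁻¹) : H) : G) ∈ K k := by
      push_cast
      exact (K k).mul_mem (hiK k) ((hKn k).conj_mem _ ((K k).inv_mem (hiK k)) _)
    rw [h1] at h2
    exact h2
  have hTco : ∀ t : H, (t : G) ∈ T → ∀ k, (t : G) ∈ K k → M.Φ t k = 1 := by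
    intro t ht k htk
    have h1 := (mem_T_iff M hTH hT t).mp ht
    have h2 := congrFun (congrArg M.Φ h1) k
    rw [map_pow, map_one, Pi.pow_apply, Pi.one_apply, S3_three] at h2
    rcases h2 with h2 | h2 | h2
    · exact h2
    · exact absurd htk (hK k t h2)
    · exfalso
      apply hK k t⁻¹
      · rw [map_inv, Pi.inv_apply, h2, inv_inv]
      · exact (K k).inv_mem htk
  have := hKn 0
  have := hKn 1
  have := hKn 2
  have hnc : ¬ IsCyclic T := by
    intro hcyc
    obtain ⟨g, hg⟩ := hcyc.exists_generator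
    have h1 : orderOf g = 27 := by rw [← hT]; exact orderOf_eq_card_of_forall_mem_zpowers hg
    have h2 : g ^ 3 = 1 := Subtype.ext (htis.exp g g.2)
    have := orderOf_dvd_of_pow_eq_one h2
    rw [h1] at this
    omega
  have amem : ∀ k, (a k : G) ∈ T ∧ (a k : G) ≠ 1 := by
    intro k
    constructor
    · rw [mem_T_iff M hTH hT]
      apply M.inj
      rw [map_pow, ha, map_one]
      funext m
      simp only [Pi.pow_apply, co, Pi.one_apply]
      split_ifs
      · decide
      · rfl
    · intro h
      have h' : a k = 1 := Subtype.ext h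
      have := ha k
      rw [h', map_one] at this
      have := congrFun this k
      simp only [Pi.one_apply, co, if_true] at this
      exact absurd this (by decide)
  have hCT : Subgroup.centralizer (T : Set G) ≤ T := by
    intro x hx
    have hxa : ∀ k, x * (a k : G) = a k * x := fun k => ((Subgroup.mem_centralizer_iff.mp hx) _ (amem k).1).symm
    have hxH : x ∈ H := hC _ (amem 0).1 (amem 0).2 (by rw [Subgroup.mem_centralizer_singleton_iff]; exact hxa 0)
    rw [show x = ((⟨x, hxH⟩ : H) : G) from rfl, mem_T_iff M hTH hT]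
    apply M.inj
    rw [map_pow, map_one]
    funext k
    apply S3_comm
    have h1 : (⟨x, hxH⟩ : H) * a k = a k * ⟨x, hxH⟩ := Subtype.ext (hxa k)
    have h2 := congrFun (congrArg M.Φ h1) k
    rw [map_mul, map_mul, ha] at h2
    simpa [co] using h2
  have hN0 : K 0 ⊓ K 1 ⊓ K 2 = ⊥ := by
    apply eq_bot_of_inf htis hnc hCT
    rw [eq_bot_iff]
    rintro t ⟨⟨⟨h0, h1⟩, h2⟩, ht⟩
    rw [Subgroup.mem_bot]
    have h3 : (⟨t, hTH ht⟩ : H) = 1 := by
      apply M.inj
      rw [map_one]
      funext k
      fin_cases k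
      · exact hTco ⟨t, hTH ht⟩ ht 0 h0
      · exact hTco ⟨t, hTH ht⟩ ht 1 h1
      · exact hTco ⟨t, hTH ht⟩ ht 2 h2
    exact congrArg Subtype.val h3
  have hcomm : ∀ x ∈ K 1 ⊓ K 2, x * (a 1 : G) = a 1 * x := by
    intro x hx
    have h1 : x * (a 1 : G) * x⁻¹ * (a 1 : G)⁻¹ ∈ K 0 ⊓ K 1 ⊓ K 2 := by
      have e1 : x * (a 1 : G) * x⁻¹ * (a 1 : G)⁻¹ = x * ((a 1 : G) * x⁻¹ * (a 1 : G)⁻¹) := by group
      refine ⟨⟨(K 0).mul_mem ((hKn 0).conj_mem _ (aK 1 0 (by decide)) x) ((K 0).inv_mem (aK 1 0 (by decide))), ?_⟩, ?_⟩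
      · rw [e1]; exact (K 1).mul_mem hx.1 ((hKn 1).conj_mem _ ((K 1).inv_mem hx.1) _)
      · rw [e1]; exact (K 2).mul_mem hx.2 ((hKn 2).conj_mem _ ((K 2).inv_mem hx.2) _)
    rw [hN0, Subgroup.mem_bot] at h1
    have := congrArg (fun y => y * (a 1 : G) * x) h1
    simpa [mul_assoc] using this
  have hTn : T.Normal := by
    apply normal_of_zpowers htis (amem 0).1 (amem 0).2
    intro g
    have h1 : g * (a 0 : G) * g⁻¹ ∈ K 1 := (hKn 1).conj_mem _ (aK 0 1 (by decide)) g
    have h2 : g * (a 0 : G) * g⁻¹ ∈ K 2 := (hKn 2).conj_mem _ (aK 0 2 (by decide)) g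
    have h3 := hcomm _ ⟨h1, h2⟩
    have h4 : g * (a 0 : G) * g⁻¹ ∈ H := hC _ (amem 1).1 (amem 1).2 (by rw [Subgroup.mem_centralizer_singleton_iff]; exact h3)
    have h5 : g * (a 0 : G) * g⁻¹ ∈ T := by
      apply htis.mem_of_pow (by rw [hN]; exact h4)
      rw [conj_pow, htis.exp _ (amem 0).1]; group
    have h6 := hTco ⟨_, h4⟩ h5 1 h1
    have h7 := hTco ⟨_, h4⟩ h5 2 h2
    have h8 := congrFun (congrArg M.Φ ((mem_T_iff M hTH hT ⟨_, h4⟩).mp h5)) 0
    rw [map_pow, map_one, Pi.pow_apply, Pi.one_apply, S3_three] at h8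
    rw [Subgroup.mem_zpowers_iff]
    rcases h8 with h8 | h8 | h8
    · refine ⟨0, ?_⟩
      have : (⟨_, h4⟩ : H) = 1 := by
        apply M.inj
        rw [map_one]
        funext k
        fin_cases k
        · exact h8
        · exact h6
        · exact h7
      rw [zpow_zero]
      exact (congrArg Subtype.val this).symm
    · refine ⟨1, ?_⟩
      have : (⟨_, h4⟩ : H) = a 0 := by
        apply M.inj
        rw [ha]
        funext k
        fin_cases k
        · exact h8
        · exact h6
        · exact h7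
      rw [zpow_one]
      exact (congrArg Subtype.val this).symm
    · refine ⟨-1, ?_⟩
      have : (⟨_, h4⟩ : H) = (a 0)⁻¹ := by
        apply M.inj
        rw [map_inv, ha]
        funext k
        fin_cases k
        · exact h8
        · exact h6
        · exact h7
      rw [zpow_neg_one]
      exact (congrArg Subtype.val this).symm
  rw [← hN]
  exact Subgroup.normalizer_eq_top_iff.mpr hTn

end main

end Cfsg.Agent.Lib.H25Tri
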