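import Mathlib

/-!
# The even subgroup of `S₃ × S₅` and the local data of `A₈` (helper25)
-/

set_option autoImplicit false
set_option linter.all false

namespace Cfsg.Agent.Lib.H25X

open Equiv Equiv.Perm

abbrev S3 := Perm (Fin 3)
abbrev S5 := Perm (Fin 5)

/-- pairs of permutations whose signs agree -/
abbrev L0 : Subgroup (S3 × S5) :=
  (((Equiv.Perm.sign).comp (MonoidHom.fst (Equiv.Perm (Fin 3)) (Equiv.Perm (Fin 5)))) *
    ((Equiv.Perm.sign).comp (MonoidHom.snd (Equiv.Perm (Fin 3)) (Equiv.Perm (Fin 5))))).ker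

theorem mem_L0 (x : S3 × S5) : x ∈ L0 ↔ sign x.1 * sign x.2 = 1 := Iff.rfl

/-- the 3-cycle of `S₃` -/
def c3 : S3 := swap 0 1 * swap 1 2
/-- the 3-cycle `(0 1 2)` of `S₅` -/
def c5 : S5 := swap 0 1 * swap 1 2
/-- the involution `(0 1)(2 3)` of `S₅` -/
def t5 : S5 := swap 0 1 * swap 2 3

/-- elements of `L0` -/
def zL : L0 := ⟨(c3, 1), by rw [mem_L0]; decide⟩
def aL : L0 := ⟨(1, c5), by rw [mem_L0]; decide⟩
def tL : L0 := ⟨(1, t5), by rw [mem_L0]; decide⟩

/-- the local data used at the end of the recognition of `A₈` -/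
structure EndData {G : Type*} [Group G] (φ : L0 →* G) : Prop where
  inj : Function.Injective φ
  norm : Subgroup.normalizer (Subgroup.zpowers (φ zL) : Set G) = φ.range
  card : Nat.card G = 20160
  cent : Nat.card (Subgroup.centralizer ({φ tL} : Set G)) = 96
  conj : IsConj (φ zL) (φ aL)
  yy : ∀ x : G, x ^ 3 = 1 → x * φ (zL * aL) = φ (zL * aL) * x → x ∈ Subgroup.closure {φ zL, φ aL}

end Cfsg.Agent.Lib.H25X
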