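import Cfsg.Agent.Lib.H25Wc

/-!
# The algebra of quadratic forms for `A₈` (helper25)
-/

set_option autoImplicit false
set_option linter.all false
set_option maxHeartbeats 800000

namespace Cfsg.Agent.Lib.H25X

open Cfsg.Agent.Lib.H25W

theorem intcase {p q s m : ℤ} (hp : (p : ZMod 9) = 1) (hq : (q : ZMod 9) = 7) (hs : (s : ZMod 9) = 7)
    (hm : (m : ZMod 9) = 8) (h1 : (m + 1) * (p + m) = 81 * p) (h2 : 2 * ((m + 1) * (q + m)) = 27 * q)
    (h3 : (m - 5) * (s - 6) = 30) : (p = 1 ∧ q = 16 ∧ s = 16 ∧ m = 8) ∨ (p = 28 ∧ q = -56 ∧ s = 7 ∧ m = 35) := by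
  have hm' : (m - 8) % 9 = 0 := by
    have : ((m - 8 : ℤ) : ZMod 9) = 0 := by push_cast; rw [hm]; decide
    exact Int.emod_eq_zero_of_dvd ((ZMod.intCast_zmod_eq_zero_iff_dvd _ 9).mp this)
  have hs' : (s - 7) % 9 = 0 := by
    have : ((s - 7 : ℤ) : ZMod 9) = 0 := by push_cast; rw [hs]; decide
    exact Int.emod_eq_zero_of_dvd ((ZMod.intCast_zmod_eq_zero_iff_dvd _ 9).mp this)
  have hdvd : (m - 5) ∣ 30 := ⟨s - 6, h3.symm⟩
  have hle : m - 5 ≤ 30 := Int.le_of_dvd (by norm_num) hdvd
  have hge : -(m - 5) ≤ 30 := Int.le_of_dvd (by norm_num) ((neg_dvd).mpr hdvd)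
  have hmm : m = 8 ∨ m = 35 ∨ m = -1 ∨ m = -10 ∨ m = -19 ∨ m = 17 ∨ m = 26 := by omega
  rcases hmm with rfl | rfl | rfl | rfl | rfl | rfl | rfl
  · left; refine ⟨?_, ?_, ?_, rfl⟩ <;> omega
  · right; refine ⟨?_, ?_, ?_, rfl⟩ <;> omega
  all_goals (exfalso; omega)

theorem final_dual {p q s m : ℤ} (hp : (p : ZMod 9) = 1) (hq : (q : ZMod 9) = 7) (hs : (s : ZMod 9) = 7)
    (hm : (m : ZMod 9) = 8) {c c' u u' w w' v v' : ℂ}
    (a1 : 5 * (u + p * c) ^ 2 + (u' + p * c') ^ 2 = 5 * (p * (p + 1)))
    (a2 : 5 * (u + p * c) * c + (u' + p * c') * c' = 5 * p)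
    (a3 : m * (5 * c ^ 2 + c' ^ 2) = 5 * (m + 1))
    (e1 : 11 * (w + q * c) ^ 2 - 6 * (w + q * c) * (w' + q * c') + (w' + q * c') ^ 2 = q * (q + 1))
    (e2 : 11 * (w + q * c) * c - 3 * ((w + q * c) * c' + (w' + q * c') * c) + (w' + q * c') * c' = q)
    (e3 : m * (11 * c ^ 2 - 6 * c * c' + c' ^ 2) = m + 1)
    (b1 : m * (5 * w ^ 2 + w' ^ 2) = 5 * q * (q + m))
    (b2 : m * (5 * w * v + w' * v') = 5 * q * s)
    (b3 : m * (5 * v ^ 2 + v' ^ 2) = 5 * s * (s + m))
    (f1 : m * (11 * u ^ 2 + 6 * u * u' + u' ^ 2) = p * (p + m))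
    (f2 : m * (11 * u * v + 3 * (u * v' + u' * v) + u' * v') = p * s)
    (f3 : m * (11 * v ^ 2 + 6 * v * v' + v' ^ 2) = s * (s + m)) :
    ((p = 1 ∧ q = 16 ∧ s = 16 ∧ m = 8) ∨ (p = 28 ∧ q = -56 ∧ s = 7 ∧ m = 35)) ∧
      2 * (v' + s * c') = s * c' ∧ 9 * m * c' ^ 2 = 25 * (m + 1) := by
  have hm0 : (m : ℂ) ≠ 0 := by
    intro h
    have : m = 0 := by exact_mod_cast h
    revert hm; subst this; decide
  have hp0 : (p : ℂ) ≠ 0 := by
    intro h
    have : p = 0 := by exact_mod_cast h
    revert hp; subst this; decide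
  have hq0 : (q : ℂ) ≠ 0 := by
    intro h
    have : q = 0 := by exact_mod_cast h
    revert hq; subst this; decide
  have hs0 : (s : ℂ) ≠ 0 := by
    intro h
    have : s = 0 := by exact_mod_cast h
    revert hs; subst this; decide
  -- reduced forms
  have A2 : m * (5 * u * c + u' * c') = -(5 * p) := by linear_combination m * a2 - p * a3
  have A1 : m * (5 * u ^ 2 + u' ^ 2) = 5 * (p * (p + m)) := by
    linear_combination m * a1 - 2 * p * A2 - p ^ 2 * a3
  have E2 : m * (11 * w * c - 3 * (w * c' + w' * c) + w' * c') = -q := by linear_combination m * e2 - q * e3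
  have E1 : m * (11 * w ^ 2 - 6 * w * w' + w' ^ 2) = q * (q + m) := by
    linear_combination m * e1 - 2 * q * E2 - q ^ 2 * e3
  have hc : (5 * c - c') * (5 * c - 2 * c') = 0 := by
    apply mul_left_cancel₀ hm0
    linear_combination (5 * e3 - a3) / 2
  have hu : (5 * u + u') * (5 * u + 2 * u') = 0 := by
    apply mul_left_cancel₀ hm0
    linear_combination (5 * f1 - A1) / 2
  have hw : (5 * w - w') * (5 * w - 2 * w') = 0 := by
    apply mul_left_cancel₀ hm0
    linear_combination (5 * E1 - b1) / 2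
  have m0 : ((m + 1 : ℤ) : ZMod 9) = 0 := by push_cast; rw [hm]; decide
  rcases mul_eq_zero.mp hc with hc | hc
  · exfalso
    have hc' : c' = 5 * c := by linear_combination -hc
    subst hc'
    have h6 : 6 * (m * c ^ 2) = (m : ℂ) + 1 := by linear_combination a3 / 5
    rcases mul_eq_zero.mp hu with hu | hu
    · have hu' : u' = -(5 * u) := by linear_combination hu
      subst hu'
      have k1 : 4 * (m * c * u) = p := by linear_combination -A2 / 5
      have k2 : 6 * (m * u ^ 2) = (p * (p + m) : ℂ) := by linear_combination A1 / 5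
      have k3 : (4 * ((m + 1) * (p + m)) : ℂ) = 9 * p := by
        apply mul_left_cancel₀ hp0
        linear_combination -4 * (p * (p + m)) * h6 - 24 * (m * c ^ 2) * k2 + 9 * (4 * (m * c * u) + p) * k1
      have k4 : 4 * ((m + 1) * (p + m)) = 9 * p := by exact_mod_cast k3
      obtain ⟨k, hk⟩ := (ZMod.intCast_zmod_eq_zero_iff_dvd _ 9).mp m0
      have h9 : ((p + m : ℤ) : ZMod 9) = 0 := by push_cast; rw [hp, hm]; decide
      obtain ⟨l, hl⟩ := (ZMod.intCast_zmod_eq_zero_iff_dvd _ 9).mp h9
      rw [hk, hl] at k4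
      push_cast at k4
      have k5 : p = 9 * (4 * k * l) := by linarith
      rw [k5] at hp
      push_cast at hp
      have : (9 : ZMod 9) = 0 := by decide
      rw [this, zero_mul] at hp
      revert hp; decide
    · obtain ⟨k, rfl⟩ : ∃ k, u = 2 * k := ⟨u / 2, by ring⟩
      have hu' : u' = -(5 * k) := by linear_combination hu / 2
      subst hu'
      have k1 : 3 * (m * c * k) = p := by linear_combination -A2 / 5
      have k2 : 9 * (m * k ^ 2) = (p * (p + m) : ℂ) := by linear_combination A1 / 5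
      have k3 : (((m + 1) * (p + m)) : ℂ) = 6 * p := by
        apply mul_left_cancel₀ hp0
        linear_combination -(p * (p + m)) * h6 - 6 * (m * c ^ 2) * k2 + 6 * (3 * (m * c * k) + p) * k1
      have k4 : (m + 1) * (p + m) = 6 * p := by exact_mod_cast k3
      have h2 := congrArg (Int.cast : ℤ → ZMod 9) k4
      push_cast at h2
      rw [hp, hm] at h2
      revert h2; decide
  · obtain ⟨d, rfl⟩ : ∃ d, c = 2 * d := ⟨c / 2, by ring⟩
    have hc' : c' = 5 * d := by linear_combination -hc / 2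
    subst hc'
    have h9 : 9 * (m * d ^ 2) = (m : ℂ) + 1 := by linear_combination a3 / 5
    rcases mul_eq_zero.mp hu with hu | hu
    · exfalso
      have hu' : u' = -(5 * u) := by linear_combination hu
      subst hu'
      have k1 : 3 * (m * d * u) = p := by linear_combination -A2 / 5
      have k2 : 6 * (m * u ^ 2) = (p * (p + m) : ℂ) := by linear_combination A1 / 5
      have k3 : (((m + 1) * (p + m)) : ℂ) = 6 * p := by
        apply mul_left_cancel₀ hp0
        linear_combination -(p * (p + m)) * h9 - 9 * (m * d ^ 2) * k2 + 6 * (3 * (m * d * u) + p) * k1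
      have k4 : (m + 1) * (p + m) = 6 * p := by exact_mod_cast k3
      have h2 := congrArg (Int.cast : ℤ → ZMod 9) k4
      push_cast at h2
      rw [hp, hm] at h2
      revert h2; decide
    · obtain ⟨k, rfl⟩ : ∃ k, u = 2 * k := ⟨u / 2, by ring⟩
      have hu' : u' = -(5 * k) := by linear_combination hu / 2
      subst hu'
      have k1 : m * d * k = p := by linear_combination -A2 / 5
      have k2 : 9 * (m * k ^ 2) = (p * (p + m) : ℂ) := by linear_combination A1 / 5
      have k3 : (((m + 1) * (p + m)) : ℂ) = 81 * p := by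
        apply mul_left_cancel₀ hp0
        linear_combination -(p * (p + m)) * h9 - 9 * (m * d ^ 2) * k2 + 81 * ((m * d * k) + p) * k1
      have k4 : (m + 1) * (p + m) = 81 * p := by exact_mod_cast k3
      rcases mul_eq_zero.mp hw with hw | hw
      · have hw' : w' = 5 * w := by linear_combination -hw
        subst hw'
        have l1 : 2 * (m * d * w) = -q := by linear_combination E2
        have l2 : 6 * (m * w ^ 2) = (q * (q + m) : ℂ) := by linear_combination b1 / 5
        have l3 : (2 * ((m + 1) * (q + m)) : ℂ) = 27 * q := by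
          apply mul_left_cancel₀ hq0
          linear_combination -2 * (q * (q + m)) * h9 - 18 * (m * d ^ 2) * l2 + 27 * (2 * (m * d * w) - q) * l1
        have l4 : 2 * ((m + 1) * (q + m)) = 27 * q := by exact_mod_cast l3
        have v1 : v + v' = -(2 * d * s) := by
          apply mul_left_cancel₀ hq0
          linear_combination (v + v') * l1 - 2 * d * b2 / 5
        have v2 : 7 * v + v' = d * s := by
          apply mul_left_cancel₀ hp0
          linear_combination -(7 * v + v') * k1 + d * f2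
        have v3 : 2 * v = d * s := by linear_combination (v2 - v1) / 3
        have v4 : 2 * v' = -(5 * d * s) := by linear_combination 2 * v1 - v3
        have v5 : v = d * s / 2 := by linear_combination v3 / 2
        have v6 : v' = -(5 * d * s) / 2 := by linear_combination v4 / 2
        have b3' : (m : ℂ) * (5 * (d * s / 2) ^ 2 + (-(5 * d * s) / 2) ^ 2) = 5 * s * (s + m) := by
          rw [← v5, ← v6]; exact b3
        have s3 : (((m - 5) * (s - 6)) : ℂ) = 30 := by
          apply mul_left_cancel₀ hs0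
          linear_combination -s ^ 2 * h9 + (6 / 5) * b3'
        have s4 : (m - 5) * (s - 6) = 30 := by exact_mod_cast s3
        refine ⟨intcase hp hq hs hm k4 l4 s4, ?_, ?_⟩
        · linear_combination v4
        · linear_combination 25 * h9
      · exfalso
        obtain ⟨h, rfl⟩ : ∃ h, w = 2 * h := ⟨w / 2, by ring⟩
        have hw' : w' = 5 * h := by linear_combination -hw / 2
        subst hw'
        have l1 : 9 * (m * d * h) = -q := by linear_combination E2
        have l2 : 9 * (m * h ^ 2) = (q * (q + m) : ℂ) := by linear_combination b1 / 5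
        have l3 : (((m + 1) * (q + m)) : ℂ) = q := by
          apply mul_left_cancel₀ hq0
          linear_combination -(q * (q + m)) * h9 - 9 * (m * d ^ 2) * l2 + (9 * (m * d * h) - q) * l1
        have l4 : (m + 1) * (q + m) = q := by exact_mod_cast l3
        have h2 := congrArg (Int.cast : ℤ → ZMod 9) l4
        push_cast at h2
        rw [hq, hm] at h2
        revert h2; decide

/-- Gram matrices of two vectors in the four forms -/
theorem final_gram {p q s m : ℤ} (hp : (p : ZMod 9) = 1) (hq : (q : ZMod 9) = 7) (hs : (s : ZMod 9) = 7)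
    (hm : (m : ZMod 9) = 8) {a a' b b' t t' c c' : ℂ}
    (A11 : Q3 1 p m 0 a c 0 a c = 1) (A12 : Q3 1 p m 0 a c 0 a' c' = 0) (A22 : Q3 1 p m 0 a' c' 0 a' c' = 5)
    (E11 : Q3 1 q m 0 b c 0 b c = 1 / 2) (E12 : Q3 1 q m 0 b c 0 b' c' = 3 / 2) (E22 : Q3 1 q m 0 b' c' 0 b' c' = 11 / 2)
    (B11 : Q3 q s m b t c b t c = 1) (B12 : Q3 q s m b t c b' t' c' = 0) (B22 : Q3 q s m b' t' c' b' t' c' = 5)
    (F11 : Q3 p s m a t c a t c = 1 / 2) (F12 : Q3 p s m a t c a' t' c' = -(3 / 2)) (F22 : Q3 p s m a' t' c' a' t' c' = 11 / 2) :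
    ((p = 1 ∧ q = 16 ∧ s = 16 ∧ m = 8) ∨ (p = 28 ∧ q = -56 ∧ s = 7 ∧ m = 35)) ∧
      2 * m * t' = s * c' ∧ 9 * c' ^ 2 = 25 * m * (m + 1) := by
  have hm0 : (m : ℂ) ≠ 0 := by
    intro h
    have : m = 0 := by exact_mod_cast h
    rw [this] at hm
    revert hm; subst this; decide
  have hp0 : (p : ℂ) ≠ 0 := by
    intro h
    have : p = 0 := by exact_mod_cast h
    rw [this] at hp
    revert hp; subst this; decide
  have hq0 : (q : ℂ) ≠ 0 := by
    intro h
    have : q = 0 := by exact_mod_cast h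
    rw [this] at hq
    revert hq; subst this; decide
  have hs0 : (s : ℂ) ≠ 0 := by
    intro h
    have : s = 0 := by exact_mod_cast h
    rw [this] at hs
    revert hs; subst this; decide
  have hx : ∀ x y z : ℤ, (x : ZMod 9) + y + z ≠ 0 → (x : ℂ) + y + z ≠ 0 := by
    intro x y z h h0
    apply h
    have h1 : x + y + z = 0 := by exact_mod_cast h0
    have h2 := congrArg (Int.cast : ℤ → ZMod 9) h1
    push_cast at h2
    exact h2
  have x1 : (1 : ℂ) + p + m ≠ 0 := by
    have := hx 1 p m (by push_cast; rw [hp, hm]; decide)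
    simpa using this
  have x2 : (1 : ℂ) + q + m ≠ 0 := by
    have := hx 1 q m (by push_cast; rw [hq, hm]; decide)
    simpa using this
  have x3 : (q : ℂ) + s + m ≠ 0 := hx q s m (by rw [hq, hs, hm]; decide)
  have x4 : (p : ℂ) + s + m ≠ 0 := hx p s m (by rw [hp, hs, hm]; decide)
  unfold Q3 at *
  -- first plane
  have A11' : a ^ 2 / p + c ^ 2 / m - (a + c) ^ 2 / (1 + p + m) = 1 := by linear_combination A11
  have A12' : a * a' / p + c * c' / m - (a + c) * (a' + c') / (1 + p + m) = 0 := by linear_combination A12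
  have A22' : a' ^ 2 / p + c' ^ 2 / m - (a' + c') ^ 2 / (1 + p + m) = 5 := by linear_combination A22
  have E11' : b ^ 2 / q + c ^ 2 / m - (b + c) ^ 2 / (1 + q + m) = 1 / 2 := by linear_combination E11
  have E12' : b * b' / q + c * c' / m - (b + c) * (b' + c') / (1 + q + m) = 3 / 2 := by linear_combination E12
  have E22' : b' ^ 2 / q + c' ^ 2 / m - (b' + c') ^ 2 / (1 + q + m) = 11 / 2 := by linear_combination E22
  have a1 := dual11 hp0 hm0 x1 (by ring : (1 : ℂ) + p + m = p + m + 1) A11' A12' A22'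
  have a2 := dual12 hp0 hm0 x1 (by ring : (1 : ℂ) + p + m = p + m + 1) A11' A12' A22'
  have a3 := dual22 hp0 hm0 x1 (by ring : (1 : ℂ) + p + m = p + m + 1) A11' A12' A22'
  have e1 := dual11 hq0 hm0 x2 (by ring : (1 : ℂ) + q + m = q + m + 1) E11' E12' E22'
  have e2 := dual12 hq0 hm0 x2 (by ring : (1 : ℂ) + q + m = q + m + 1) E11' E12' E22'
  have e3 := dual22 hq0 hm0 x2 (by ring : (1 : ℂ) + q + m = q + m + 1) E11' E12' E22'
  -- ternary forms
  have T := fun (b t c b' t' c' : ℂ) => ternary (b1 := b) (s1 := t) (c1 := c) (b2 := b') (s2 := t') (c2 := c') hq0 hs0 hm0 x3 rfl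
  have T' := fun (b t c b' t' c' : ℂ) => ternary (b1 := b) (s1 := t) (c1 := c) (b2 := b') (s2 := t') (c2 := c') hp0 hs0 hm0 x4 rfl
  obtain ⟨d, hd⟩ : ∃ d, c = m * d := ⟨c / m, by field_simp⟩
  obtain ⟨d', hd'⟩ : ∃ d', c' = m * d' := ⟨c' / m, by field_simp⟩
  have B11' := (T b t c b t c).trans B11
  have B12' := (T b t c b' t' c').trans B12
  have B22' := (T b' t' c' b' t' c').trans B22
  have F11' := (T' a t c a t c).trans F11
  have F12' := (T' a t c a' t' c').trans F12
  have F22' := (T' a' t' c' a' t' c').trans F22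
  have dd : ∀ z : ℂ, z * c / m = z * d := fun z => by rw [hd]; field_simp
  have dd' : ∀ z : ℂ, z * c' / m = z * d' := fun z => by rw [hd']; field_simp
  simp only [dd, dd'] at B11' B12' B22' F11' F12' F22'
  have B11'' : (b - q * d) ^ 2 / q + (t - s * d) ^ 2 / s - ((b - q * d) + (t - s * d)) ^ 2 / (q + s + m) = 1 := by linear_combination B11'
  have B22'' : (b' - q * d') ^ 2 / q + (t' - s * d') ^ 2 / s - ((b' - q * d') + (t' - s * d')) ^ 2 / (q + s + m) = 5 := by linear_combination B22'
  have F11'' : (a - p * d) ^ 2 / p + (t - s * d) ^ 2 / s - ((a - p * d) + (t - s * d)) ^ 2 / (p + s + m) = 1 / 2 := by linear_combination F11'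
  have F22'' : (a' - p * d') ^ 2 / p + (t' - s * d') ^ 2 / s - ((a' - p * d') + (t' - s * d')) ^ 2 / (p + s + m) = 11 / 2 := by linear_combination F22'
  have b1 := dual11 hq0 hs0 x3 rfl B11'' B12' B22''
  have b2 := dual12 hq0 hs0 x3 rfl B11'' B12' B22''
  have b3 := dual22 hq0 hs0 x3 rfl B11'' B12' B22''
  have f1 := dual11 hp0 hs0 x4 rfl F11'' F12' F22''
  have f2 := dual12 hp0 hs0 x4 rfl F11'' F12' F22''
  have f3 := dual22 hp0 hs0 x4 rfl F11'' F12' F22''
  have res := final_dual hp hq hs hm (c := d) (c' := d') (u := a - p * d) (u' := a' - p * d') (w := b - q * d) (w' := b' - q * d')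
    (v := t - s * d) (v' := t' - s * d') ?_ ?_ ?_ ?_ ?_ ?_ ?_ ?_ ?_ ?_ ?_ ?_
  · refine ⟨res.1, ?_, ?_⟩
    · rw [hd']
      linear_combination m * res.2.1
    · rw [hd']
      linear_combination m * res.2.2
  · linear_combination a1
  · apply mul_left_cancel₀ hm0
    rw [hd, hd'] at a2
    linear_combination a2
  · apply mul_left_cancel₀ hm0
    rw [hd, hd'] at a3
    linear_combination a3
  · linear_combination 2 * e1
  · apply mul_left_cancel₀ hm0
    rw [hd, hd'] at e2
    linear_combination 2 * e2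
  · apply mul_left_cancel₀ hm0
    rw [hd, hd'] at e3
    linear_combination 2 * e3
  · linear_combination b1
  · linear_combination b2
  · linear_combination b3
  · linear_combination 2 * f1
  · linear_combination 2 * f2
  · linear_combination 2 * f3

end Cfsg.Agent.Lib.H25X
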