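import Cfsg.Agent.Lib.H25Xa

/-!
# Computations in the even subgroup of `S₃ × S₅` (helper25)
-/

set_option autoImplicit false
set_option linter.all false
set_option maxHeartbeats 4000000
set_option synthInstance.maxHeartbeats 1000000
set_option synthInstance.maxSize 100000

namespace Cfsg.Agent.Lib.H25X

open Equiv Equiv.Perm

/-- a 5-cycle -/
def f5 : S5 := finRotate 5

def fL : L0 := ⟨(1, f5), by rw [mem_L0]; decide⟩
def sL : L0 := ⟨(swap 0 1, swap 0 1), by rw [mem_L0]; decide⟩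

def cc (l : L0) : ℕ := (Finset.univ.filter (fun x : L0 => x * l = l * x)).card
def ic (l : L0) : ℕ := (Finset.univ.filter (fun x : L0 => (x * x = 1 ∧ x ≠ 1) ∧ ((x⁻¹ * l) * (x⁻¹ * l) = 1 ∧ x⁻¹ * l ≠ 1))).card

theorem cc_vals : cc zL = 180 ∧ cc (zL * tL) = 12 ∧ cc (zL * fL) = 15 ∧ cc (zL * (fL * fL)) = 15 := by decide +kernel
theorem ic_vals : ic zL = 30 ∧ ic (zL * tL) = 6 ∧ ic (zL * fL) = 0 ∧ ic (zL * (fL * fL)) = 0 := by decide +kernel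

theorem cls5 : ∀ x : L0, x.1.1 = 1 → x = 1 ∨ ∃ g : L0, g * zL = zL * g ∧
    (g * x = tL * g ∨ g * x = aL * g ∨ g * x = fL * g ∨ g * x = (fL * fL) * g) := by decide +kernel

theorem cls3 : ∀ x : L0, x.1.1 = 1 → x * x * x = 1 → x ≠ 1 → ∃ g : L0, g * zL = zL * g ∧ g * x = aL * g := by decide +kernel

theorem invo_L : ∀ x : L0, x * x = 1 → x ≠ 1 → ((x * zL = zL * x ∧ ∃ g : L0, g * x = tL * g) ∨
    (x * zL ≠ zL * x ∧ ∃ g : L0, g * x = sL * g)) := by decide +kernel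

theorem ncj_f : ∀ g : L0, g * (zL * fL) ≠ (zL * (fL * fL)) * g := by decide +kernel

theorem cnt_c5 : (Finset.univ.filter (fun x : L0 => x.1.1 = 1 ∧ x * x * x = 1 ∧ x ≠ 1 ∧ x ≠ aL ∧ x ≠ aL * aL ∧
    aL * x * (aL * x) * (aL * x) = 1)).card = 6 ∧ 
    (Finset.univ.filter (fun x : L0 => x.1.1 = 1 ∧ x * x * x = 1 ∧ x ≠ 1 ∧ x ≠ aL ∧ x ≠ aL * aL)).card = 18 := by decide +kernel

theorem norm3 : ∀ x : L0, x * x * x = 1 → (∀ g : L0, g = fL ∨ g = aL → g * x = x * g ∨ g * x = x * x * g) → x = 1 ∨ x = zL ∨ x = zL * zL := by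
  decide +kernel

theorem first_one : ∀ x r : S3, x * c3 = c3 * x → r * c3 = c3 * r → r * x * x = x * r → x * x * x = 1 → x = 1 := by decide +kernel

theorem first_zpow : ∀ x : S3, x * c3 = c3 * x → x = 1 ∨ x = c3 ∨ x = c3 * c3 := by decide +kernel

theorem pow_vals : zL ^ 10 = zL ∧ (zL * tL) ^ 10 = zL ∧ (zL * fL) ^ 10 = zL ∧ (zL * (fL * fL)) ^ 10 = zL := by decide +kernel

theorem conj_vals : sL * zL = zL * zL * sL ∧ zL * zL * zL = 1 ∧ aL * aL * aL = 1 ∧ tL * tL = 1 ∧ sL * sL = 1 ∧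
    (∃ g : L0, g * (zL * tL) = (zL * tL)⁻¹ * g) ∧ (∃ g : L0, g * (zL * fL)⁻¹ = (zL * (fL * fL)) * g) ∧
    (∃ g : L0, g * (zL * fL) = (zL * (fL * fL * fL * fL)) * g) ∧ (∃ g : L0, g * (zL * (fL * fL)) = (zL * (fL * fL * fL)) * g) ∧
    zL * aL = aL * zL ∧ zL * tL = tL * zL ∧ zL * fL = fL * zL ∧ fL * fL * fL * fL * fL = 1 := by decide +kernel

end Cfsg.Agent.Lib.H25X
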