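import Cfsg.Agent.Lib.H25Nine
import Cfsg.Agent.Lib.H76Char
import Cfsg.Agent.Lib.CharGalois
import Cfsg.Agent.Lib.BlockVal
import Cfsg.Agent.Lib.BrauerApp

/-!
# Kernels of characters and the bound of Schur (helper25)
-/

set_option autoImplicit false
set_option linter.all false
set_option maxHeartbeats 1000000

namespace Cfsg.Agent.Lib.H25X

open Cfsg Cfsg.Agent.Lib.CharBasic Cfsg.Agent.Lib.H25Nine Cfsg.Agent.Lib.BlockRing
open scoped ComplexConjugate

universe u

variable {G : Type u} [Group G] [Finite G]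

theorem exists_ker {χ : G → ℂ} (hχ : IsCharacter G χ) : ∃ N : Subgroup G, N.Normal ∧ (∀ g, g ∈ N ↔ χ g = χ 1) ∧
    ∀ g ∈ N, ∀ x, χ (x * g) = χ x := by
  obtain ⟨n, R, rfl⟩ := hχ
  have h1 : ∀ g, R g = 1 ↔ R.character g = R.character 1 := by
    intro g
    rw [Representation.char_one]
    exact (CharValues.character_eq_finrank_iff R g).symm
  refine ⟨MonoidHom.ker R, inferInstance, ?_, ?_⟩
  · intro g
    rw [← h1]; exact Iff.rfl
  · intro g hg x
    have hg' : R g = 1 := hg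
    show LinearMap.trace ℂ _ (R (x * g)) = LinearMap.trace ℂ _ (R x)
    rw [map_mul, hg', mul_one]

theorem norm_le {χ : G → ℂ} (hχ : IsCharacter G χ) {n : ℕ} (hn : χ 1 = n) (g : G) : ‖χ g‖ ≤ n := by
  obtain ⟨m, R, rfl⟩ := hχ
  have h1 := CharValues.norm_character_le R g
  rw [Representation.char_one] at hn
  have h2 : (Module.finrank ℂ (Fin m → ℂ) : ℂ) = n := hn
  have h3 : Module.finrank ℂ (Fin m → ℂ) = n := by exact_mod_cast h2
  rw [h3] at h1
  exact h1

/-- the averaging argument behind Schur's bound -/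
theorem schur_list {P : Type u} [Group P] [Fintype P] {χ : P → ℂ} (hχ : IsCharacter P χ) (A : List ℤ) :
    ∀ ψ : P → ℂ, IsCharacter P ψ → ∃ n : ℤ, ∑ g, (A.map (fun a : ℤ => χ g - a)).prod * ψ g = (Nat.card P : ℂ) * n := by
  induction A with
  | nil =>
    intro ψ hψ
    obtain ⟨n, hn⟩ := hψ.classInner_nat (isCharacter_one (G := P))
    refine ⟨n, ?_⟩
    have hcard : (Nat.card P : ℂ) ≠ 0 := by exact_mod_cast Nat.card_pos.ne'
    rw [classInner_def] at hn
    have : ((n : ℤ) : ℂ) = (n : ℂ) := by push_cast; rfl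
    rw [this, ← hn, ← mul_assoc, mul_inv_cancel₀ hcard, one_mul]
    apply Finset.sum_congr rfl
    intro g _
    simp
  | cons a A ih =>
    intro ψ hψ
    obtain ⟨n1, h1⟩ := ih (χ * ψ) (hχ.mul hψ)
    obtain ⟨n2, h2⟩ := ih ψ hψ
    refine ⟨n1 - a * n2, ?_⟩
    push_cast
    have : ∀ g, ((a :: A).map (fun a : ℤ => χ g - a)).prod * ψ g =
        (A.map (fun a : ℤ => χ g - a)).prod * (χ * ψ) g - a * ((A.map (fun a : ℤ => χ g - a)).prod * ψ g) := by
      intro g
      rw [List.map_cons, List.prod_cons, Pi.mul_apply]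
      ring
    rw [Finset.sum_congr rfl fun g _ => this g, Finset.sum_sub_distrib, ← Finset.mul_sum, h1, h2]
    ring

/-- Schur's bound: the character takes only the values in `A` on the nontrivial `p`-elements -/
theorem schur {χ : G → ℂ} (hχ : IsCharacter G χ) {d : ℕ} (hd : χ 1 = d) (A : List ℤ) {p : ℕ} (hp : p.Prime)
    (hA : ∀ g : G, (∃ k, orderOf g = p ^ k) → g ≠ 1 → ∃ a ∈ A, χ g = (a : ℤ)) {m : ℕ} (hm : p ^ m ∣ Nat.card G) :
    ((p ^ m : ℕ) : ℤ) ∣ (A.map (fun a : ℤ => (d : ℤ) - a)).prod := by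
  classical
  have hf : Fact p.Prime := ⟨hp⟩
  obtain ⟨P⟩ : Nonempty (Sylow p G) := inferInstance
  have := Fintype.ofFinite (P : Subgroup G)
  have hPm : p ^ m ∣ Nat.card (P : Subgroup G) := P.pow_dvd_card_of_pow_dvd_card hm
  obtain ⟨n, hn⟩ := schur_list (hχ.restrict (P : Subgroup G)) A 1 isCharacter_one
  have h1 : ∑ g : (P : Subgroup G), (A.map (fun a : ℤ => χ (g : G) - a)).prod * (1 : ↥(P : Subgroup G) → ℂ) g = (A.map (fun a : ℤ => (d : ℂ) - a)).prod := by
    rw [Finset.sum_eq_single (1 : (P : Subgroup G))]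
    · simp [hd]
    · intro g _ hg
      obtain ⟨k, hk⟩ := IsPGroup.iff_orderOf.mp P.isPGroup' g
      have hk' : orderOf (g : G) = p ^ k := by rw [← hk, Subgroup.orderOf_coe]
      obtain ⟨a, ha, hχa⟩ := hA g ⟨k, hk'⟩ (fun h => hg (Subtype.ext h))
      have h0 : (A.map (fun a : ℤ => χ (g : G) - a)).prod = 0 := by
        apply List.prod_eq_zero
        rw [List.mem_map]
        exact ⟨a, ha, by rw [hχa]; ring⟩
      rw [h0, zero_mul]
    · intro h; exact absurd (Finset.mem_univ _) h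
  have h2 : ((A.map (fun a : ℤ => (d : ℤ) - a)).prod : ℂ) = (A.map (fun a : ℤ => (d : ℂ) - a)).prod := by
    push_cast
    rw [List.map_map]
    congr 1
    apply List.map_congr_left
    intro a _
    simp
  have h3 : ((A.map (fun a : ℤ => (d : ℤ) - a)).prod : ℤ) = (Nat.card (P : Subgroup G) : ℤ) * n := by
    have : (((A.map (fun a : ℤ => (d : ℤ) - a)).prod : ℤ) : ℂ) = (((Nat.card (P : Subgroup G) : ℤ) * n : ℤ) : ℂ) := by
      rw [h2, ← h1, Int.cast_mul, Int.cast_natCast]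
      exact hn
    exact_mod_cast this
  rw [h3]
  exact Dvd.dvd.mul_right (by exact_mod_cast hPm) n

/-- integral values at `p`-elements are congruent to the degree -/
theorem cong_p {χ : G → ℂ} (hχ : IsCharacter G χ) {d : ℕ} (hd : χ 1 = d) {p : ℕ} (hp : p.Prime) {g : G} {k : ℕ}
    (hg : orderOf g = p ^ k) {n : ℤ} (hn : χ g = n) : (p : ℤ) ∣ n - d := by
  have hf : Fact p.Prime := ⟨hp⟩
  obtain ⟨M, hM⟩ := H76Char.exists_isPModular p
  have h1 := H76Char.idl_sub_one hM hχ hg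
  rw [hn, hd] at h1
  have h3 : MemLocalIdeal M ((n - d : ℤ) : ℂ) := by push_cast; exact h1
  exact (idl_intCast_iff hM _).mp h3

end Cfsg.Agent.Lib.H25X
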