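import Cfsg.Agent.Lib.H26ReeOut2

/-!
# Two generators of the small Ree groups (helper26)
-/

set_option autoImplicit false

namespace Cfsg.Agent.Lib.H26ReeOut.OD

open Subgroup Cfsg.Agent.Lib.ReeA

universe u v

variable {G : Type u} [Group G] [Finite G] {K : Type v} [Field K] [Fintype K] {m : ℕ} (E : OD G K m)

theorem us_inv (t u v : K) : (E.us t u v)⁻¹ = E.us (-t) (-u - E.φ t * t) (-v - t * u - E.φ t * t * t - E.φ t * t ^ 2) := by
  rw [inv_eq_iff_mul_eq_one, E.hmul, ← E.us_zero]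
  congr 1
  · ring
  · rw [map_neg]; ring
  · rw [map_neg]; ring

theorem mem3 {Γ : Subgroup G} {t t' u v : K} (h : E.us t u v ∈ Γ) (e : t = t') : ∃ u' v', E.us t' u' v' ∈ Γ := by
  subst e; exact ⟨_, _, h⟩

theorem mem2 {Γ : Subgroup G} {t u u' v : K} (h : E.us t u v ∈ Γ) (e0 : t = 0) (e : u = u') :
    ∃ v', E.us 0 u' v' ∈ Γ := by
  subst e e0; exact ⟨_, h⟩

theorem mem1 {Γ : Subgroup G} {t u v v' : K} (h : E.us t u v ∈ Γ) (e0 : t = 0) (e1 : u = 0) (e : v = v') :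
    E.us 0 0 v' ∈ Γ := by
  subst e e0 e1; exact h

theorem top_of_mem {Γ : Subgroup G} (hH : ∀ s, E.h s ∈ Γ) {u : G} (hu : u = E.us 1 0 0)
    (hn : E.D.n * u ∈ Γ) : Γ = ⊤ := by
  -- step 2
  have h2 : ∀ k ∈ E.D.H, u⁻¹ * k * u ∈ Γ := by
    intro k hk
    obtain ⟨s, hs⟩ := (E.memH _).1 (E.D.nH k hk)
    have h1 := mul_mem (mul_mem (inv_mem hn) (hH s)) hn
    rw [← hs] at h1
    have : (E.D.n * u)⁻¹ * (E.D.n * k * E.D.n⁻¹) * (E.D.n * u) = u⁻¹ * k * u := by group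
    rwa [this] at h1
  -- step 3
  have h3' : ∀ y : K, y ≠ 0 → ∃ u' v', E.us (y - 1) u' v' ∈ Γ := by
    intro y hy
    have hφy : E.φ y ≠ 0 := (_root_.map_ne_zero _).2 hy
    have hyy : y ^ 2 * E.φ y ≠ 0 := mul_ne_zero (pow_ne_zero 2 hy) hφy
    set r : Kˣ := Units.mk0 (y ^ 2 * E.φ y) hyy with hr
    have hr' : (r : K) = y ^ 2 * E.φ y := rfl
    have hchi : (E.φ r)⁻¹ * (r : K) ^ 2 = y := by
      rw [hr', map_mul, E.hφφ, map_pow]
      field_simp
    have h4 := mul_mem (h2 _ (E.h_memH r)) (inv_mem (hH r))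
    have h5 : u⁻¹ * E.h r * u * (E.h r)⁻¹ = u⁻¹ * (E.h r * u * (E.h r)⁻¹) := by group
    rw [h5, hu, E.hconj, hchi, E.us_inv, E.hmul] at h4
    exact E.mem3 h4 (by ring)
  have h3 : ∀ t : K, ∃ u' v', E.us t u' v' ∈ Γ := by
    intro t
    by_cases ht : t + 1 = 0
    · obtain ⟨a, b, h⟩ := h3' (1 + 1) (by
        intro h; exact one_ne_zero (α := K) (by linear_combination E.h3 - h))
      have h1 := mul_mem h h
      rw [E.hmul] at h1
      exact E.mem3 h1 (by linear_combination E.h3 - ht)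
    · obtain ⟨a, b, h⟩ := h3' (t + 1) ht
      exact E.mem3 h (by ring)
  -- commutators
  have hcomm : ∀ t t' u v u' v' : K, ∃ w, (E.us t u v)⁻¹ * (E.us t' u' v')⁻¹ * E.us t u v * E.us t' u' v' =
      E.us 0 (E.φ t * t' - E.φ t' * t) w := by
    intro t t' u v u' v'
    rw [E.us_inv, E.us_inv, E.hmul, E.hmul, E.hmul]
    refine ⟨_, congrArg₂ (fun a b => E.us a b _) (by ring) ?_⟩
    simp only [map_add, map_neg]
    ring
  -- step 4
  obtain ⟨x, hx⟩ := E.hφ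
  have hS : ∀ z : K, ∃ v, E.us 0 z v ∈ Γ := by
    set c := E.φ x - x with hc
    have hc0 : c ≠ 0 := sub_ne_zero.2 hx
    have hSc : ∃ v, E.us 0 c v ∈ Γ := by
      obtain ⟨a, b, h⟩ := h3 x
      obtain ⟨a', b', h'⟩ := h3 1
      obtain ⟨w, hw⟩ := hcomm x 1 a b a' b'
      have h1 : E.us 0 (E.φ x * 1 - E.φ 1 * x) w ∈ Γ := by
        rw [← hw]; exact mul_mem (mul_mem (mul_mem (inv_mem h) (inv_mem h')) h) h'
      exact E.mem2 h1 rfl (by rw [map_one, hc]; ring)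
    have hSsq : ∀ w : K, ∃ v, E.us 0 (w ^ 2 * c) v ∈ Γ := by
      intro w
      by_cases hw : w = 0
      · refine ⟨0, ?_⟩
        rw [hw, zero_pow two_ne_zero, zero_mul, E.us_zero]; exact Γ.one_mem
      · have hφw : E.φ w ≠ 0 := (_root_.map_ne_zero _).2 hw
        obtain ⟨v, hv⟩ := hSc
        have h1 := mul_mem (mul_mem (hH (Units.mk0 (w * E.φ w) (mul_ne_zero hw hφw))) hv)
          (inv_mem (hH (Units.mk0 (w * E.φ w) (mul_ne_zero hw hφw))))
        rw [E.hconj, Units.val_mk0] at h1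
        refine E.mem2 h1 (by ring) ?_
        rw [map_mul, E.hφφ]
        field_simp
    intro z
    obtain ⟨v1, hv1⟩ := hSsq (z / c + 1)
    obtain ⟨v2, hv2⟩ := hSsq (z / c - 1)
    have h1 := mul_mem hv1 (inv_mem hv2)
    rw [E.us_inv, E.hmul] at h1
    refine E.mem2 h1 (by ring) ?_
    simp only [map_zero, mul_zero, zero_mul, sub_zero, neg_zero]
    field_simp
    linear_combination z * c * E.h3
  have hZ : ∀ z : K, E.us 0 0 z ∈ Γ := by
    intro z
    obtain ⟨v, hv⟩ := hS z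
    obtain ⟨a, b, h⟩ := h3 1
    have h1 := mul_mem (mul_mem (mul_mem (inv_mem hv) (inv_mem h)) hv) h
    rw [E.us_inv, E.us_inv, E.hmul, E.hmul, E.hmul] at h1
    have h2 : E.us 0 0 (-z) ∈ Γ := by
      refine E.mem1 h1 (by ring) ?_ ?_
      · simp only [map_add, map_neg, map_one, map_zero]
        ring
      · simp only [map_add, map_neg, map_one, map_zero]
        linear_combination (-1 : K) * E.h3
    have h4 := inv_mem h2
    rw [E.us_inv] at h4
    exact E.mem1 h4 (by ring) (by simp) (by simp)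
  have hU : ∀ x ∈ E.D.U, x ∈ Γ := by
    intro x hx
    obtain ⟨t, a, b, rfl⟩ := (E.memU x).1 hx
    obtain ⟨a', b', h⟩ := h3 t
    obtain ⟨b'', h'⟩ := hS (a - a')
    have h1 := mul_mem (mul_mem h h') (hZ (b - (b' + b'')))
    rw [E.hmul, E.hmul] at h1
    convert h1 using 2
    · ring
    · simp
    · simp
  have hn' : E.D.n ∈ Γ := by
    have h1 := mul_mem hn (inv_mem (hU u (by rw [hu]; exact E.us_memU _ _ _)))
    rwa [mul_inv_cancel_right] at h1
  have hB : ∀ b ∈ E.D.B, b ∈ Γ := by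
    intro b hb
    obtain ⟨u, hu, h, hh, rfl⟩ := E.decompB hb
    obtain ⟨s, rfl⟩ := (E.memH _).1 hh
    exact mul_mem (hU u hu) (hH s)
  rw [eq_top_iff]
  intro g _
  by_cases hgo : g • E.D.o = E.D.o
  · exact hB g (E.D.smul_o.1 hgo)
  · obtain ⟨u, hu, b, hb, rfl⟩ := E.decomp hgo
    exact mul_mem (mul_mem (hU u hu) hn') (hB b hb)

include E in
theorem two_gen : ∃ a b : G, closure ({a, b} : Set G) = ⊤ := by
  obtain ⟨ζ, -, hζ⟩ := E.exists_big
  refine ⟨E.h ζ, E.D.n * E.us 1 0 0, E.top_of_mem ?_ rfl (subset_closure (by simp))⟩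
  intro s
  obtain ⟨k, hk⟩ := hζ s
  rw [← hk]
  exact pow_mem (subset_closure (by simp)) k

end Cfsg.Agent.Lib.H26ReeOut.OD
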