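import Cfsg.Prelude.Def_KGroupFacts
import Cfsg.Agent.Lib.ReeQ
import Cfsg.Agent.Lib.ReeC
import Cfsg.Agent.Lib.H26ReeU
import Cfsg.Agent.Lib.FFAut
import Cfsg.Agent.Lib.ChevFix

/-!
# Automorphisms of the small Ree groups (helper26)
-/

set_option autoImplicit false

namespace Cfsg.Agent.Lib.H26ReeOut

open Subgroup Cfsg.Agent.Lib.ReeA

universe u v

/-- Data for the computation of the automorphism group. -/
structure OD (G : Type u) [Group G] [Finite G] (K : Type v) [Field K] [Fintype K] (m : ℕ) where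
  D : RD G K m
  φ : K →+* K
  us : K → K → K → G
  h : Kˣ → G
  h3 : (3 : K) = 0
  hφφ : ∀ x, φ (φ x) = x ^ 3
  hφ : ∃ x, φ x ≠ x
  memU : ∀ g, g ∈ D.U ↔ ∃ t u v, g = us t u v
  memH : ∀ g, g ∈ D.H ↔ ∃ s, g = h s
  inj : ∀ {t u v t' u' v'}, us t u v = us t' u' v' → t = t' ∧ u = u' ∧ v = v'
  hmul : ∀ t u v t' u' v', us t u v * us t' u' v' =
    us (t + t') (u + u' - φ t' * t) (v + v' - t' * u + φ t' * t * t' - φ t' * t ^ 2)
  hh : ∀ s t, h s * h t = h (s * t)
  hconj : ∀ (s : Kˣ) (t u v : K), h s * us t u v * (h s)⁻¹ =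
    us ((φ s)⁻¹ * (s : K) ^ 2 * t) (φ s * (s : K)⁻¹ * u) (s * v)
  fa : (K ≃+* K) → MulAut G
  fa_us : ∀ τ t u v, fa τ (us t u v) = us (τ t) (τ u) (τ v)
  fa_h : ∀ (τ : K ≃+* K) s, fa τ (h s) = h (Units.map (τ : K →* K) s)

namespace OD

variable {G : Type u} [Group G] [Finite G] {K : Type v} [Field K] [Fintype K] {m : ℕ} (E : OD G K m)

theorem us_zero : E.us 0 0 0 = 1 := by
  have := E.hmul 0 0 0 0 0 0
  simp only [map_zero, mul_zero, zero_mul, add_zero, sub_zero] at this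
  exact mul_eq_left.1 this

theorem h_one : E.h 1 = 1 := by
  have := E.hh 1 1
  rw [mul_one] at this
  exact mul_eq_left.1 this

theorem us_memU (t u v : K) : E.us t u v ∈ E.D.U := (E.memU _).2 ⟨_, _, _, rfl⟩
theorem h_memH (s : Kˣ) : E.h s ∈ E.D.H := (E.memH _).2 ⟨_, rfl⟩

theorem us_split (t u v : K) : E.us t u v = E.us t 0 0 * E.us 0 u 0 * E.us 0 0 v := by
  rw [E.hmul, E.hmul]
  congr 1 <;> simp

theorem us_cube (t u v : K) : E.us t u v ^ 3 = E.us 0 0 (-(E.φ t * t ^ 2)) := by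
  rw [pow_succ, sq, E.hmul, E.hmul]
  congr 1
  · linear_combination t * E.h3
  · linear_combination (u - E.φ t * t) * E.h3
  · linear_combination (v - t * u) * E.h3

include E in
theorem two_ne : (2 : K) ≠ 0 := by
  intro h
  exact one_ne_zero (α := K) (by linear_combination E.h3 - h)

/-- an automorphism fixing the centre of `U` and `H` elementwise fixes `U` elementwise -/
theorem fix_U (α : MulAut G) (hU1 : ∀ v, α (E.us 0 0 v) = E.us 0 0 v) (hH : ∀ s, α (E.h s) = E.h s)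
    (hU : ∀ x ∈ E.D.U, α x ∈ E.D.U) (t u v : K) : α (E.us t u v) = E.us t u v := by
  have hex : ∀ t, ∃ a b c, α (E.us t 0 0) = E.us a b c := fun t => (E.memU _).1 (hU _ (E.us_memU t 0 0))
  choose f g k hfgk using hex
  have hex2 : ∀ u, ∃ b, α (E.us 0 u 0) = E.us 0 b 0 := by
    intro u
    obtain ⟨a, b, c, e⟩ := (E.memU _).1 (hU _ (E.us_memU 0 u 0))
    have h1 : α (E.us 0 u 0) ^ 3 = 1 := by
      rw [← map_pow, E.us_cube]; simp [E.us_zero]
    rw [e, E.us_cube, ← E.us_zero] at h1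
    have h2 := (E.inj h1).2.2
    have ha : a = 0 := by
      rw [neg_eq_zero, mul_eq_zero, map_eq_zero] at h2
      rcases h2 with h | h
      · exact h
      · exact pow_eq_zero_iff two_ne_zero |>.1 h
    subst ha
    have h4 : E.h (-1) * E.us 0 u 0 * (E.h (-1))⁻¹ = E.us 0 u 0 := by
      rw [E.hconj]; congr 1 <;> simp
    have h5 := congrArg α h4
    rw [map_mul, map_mul, map_inv, hH, e, E.hconj] at h5
    have h6 := (E.inj h5).2.2
    have hc : c = 0 := by
      simp only [Units.val_neg, Units.val_one] at h6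
      have : 2 * c = 0 := by linear_combination -h6
      exact (mul_eq_zero.1 this).resolve_left E.two_ne
    subst hc
    exact ⟨b, e⟩
  choose b hb using hex2
  have hfb : ∀ t u, f t * b u = t * u := by
    intro t u
    have h1 : E.us t 0 0 * E.us 0 u 0 = E.us 0 u 0 * E.us t 0 0 * E.us 0 0 (t * u) := by
      rw [E.hmul, E.hmul, E.hmul]
      congr 1 <;> simp
    have h2 := congrArg α h1
    rw [map_mul, map_mul, map_mul, hfgk, hb, hU1, E.hmul, E.hmul, E.hmul] at h2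
    have h4 := (E.inj h2).2.2
    simp only [map_zero, mul_zero, zero_mul, add_zero, sub_zero, zero_add, zero_pow two_ne_zero, ne_eq] at h4
    linear_combination h4
  set a := f 1 with ha
  have hab1 : a * b 1 = 1 := by rw [ha, hfb, mul_one]
  have ha0 : a ≠ 0 := by rintro h; rw [h, zero_mul] at hab1; exact zero_ne_one hab1
  have hf : ∀ t, f t = a * t := by
    intro t
    have h1 := hfb t 1
    have h2 : b 1 ≠ 0 := by rintro h; rw [h, mul_zero] at hab1; exact zero_ne_one hab1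
    apply mul_right_cancel₀ h2
    linear_combination h1 - t * hab1
  have hb' : ∀ u, b u = a⁻¹ * u := by
    intro u
    have h1 := hfb 1 u
    rw [← ha] at h1
    field_simp
    linear_combination h1
  have hα : ∀ t u v, α (E.us t u v) = E.us (a * t) (g t + a⁻¹ * u) (k t + v) := by
    intro t u v
    rw [E.us_split, map_mul, map_mul, hfgk, hb, hU1, hf, hb', E.hmul, E.hmul]
    congr 1 <;> simp
  have hR : ∀ t t', E.us (a * t) (g t) (k t) * E.us (a * t') (g t') (k t') =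
      E.us (a * (t + t')) (g (t + t') + a⁻¹ * (-(E.φ t' * t))) (k (t + t') + (E.φ t' * t * t' - E.φ t' * t ^ 2)) := by
    intro t t'
    have h1 : E.us t 0 0 * E.us t' 0 0 = E.us (t + t') (-(E.φ t' * t)) (E.φ t' * t * t' - E.φ t' * t ^ 2) := by
      rw [E.hmul]; congr 1 <;> simp
    have h2 := congrArg α h1
    rw [map_mul, hα, hα, hα] at h2
    simpa using h2
  have hR2 : ∀ t t', g t + g t' - E.φ a * E.φ t' * (a * t) = g (t + t') - a⁻¹ * (E.φ t' * t) := by
    intro t t'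
    have h1 := hR t t'
    rw [E.hmul] at h1
    have h2 := (E.inj h1).2.1
    rw [map_mul] at h2
    linear_combination h2
  obtain ⟨x, hx⟩ := E.hφ
  have hxφ : x - E.φ x ≠ 0 := sub_ne_zero.2 (Ne.symm hx)
  have ha1 : a⁻¹ = E.φ a * a := by
    have h1 := hR2 x 1
    have h2 := hR2 1 x
    rw [map_one] at h1
    have h4 : (a⁻¹ - E.φ a * a) * (x - E.φ x) = 0 := by
      rw [add_comm 1 x] at h2
      linear_combination h1 - h2
    have := (mul_eq_zero.1 h4).resolve_right hxφ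
    linear_combination this
  have ha2 : E.φ a * a ^ 2 = 1 := by
    have : a⁻¹ * a = 1 := inv_mul_cancel₀ ha0
    rw [ha1] at this
    linear_combination this
  have haφ : E.φ a ≠ 0 := by rintro h; rw [h, zero_mul] at ha2; exact zero_ne_one ha2
  have ha3 : a = 1 := by
    have h1 := congrArg E.φ ha2
    rw [map_mul, map_pow, E.hφφ, map_one] at h1
    have h2 : (a ^ 3 * E.φ a ^ 2) * a = (E.φ a * a ^ 2) ^ 2 := by ring
    rwa [h1, ha2, one_mul, one_pow] at h2
  have hg : ∀ t, g t = 0 := by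
    intro t
    have h1 := hR2 t (-t)
    have h4 : E.h (-1) * E.us t 0 0 * (E.h (-1))⁻¹ = E.us (-t) 0 0 := by
      rw [E.hconj]; congr 1 <;> simp
    have h5 := congrArg α h4
    rw [map_mul, map_mul, map_inv, hH, hα, hα, E.hconj] at h5
    have h6 := (E.inj h5).2.1
    have h7 := hR2 0 0
    simp at h6 h7
    rw [add_neg_cancel, h7, ← h6, ha3] at h1
    simp at h1
    have h8 : 2 * g t = 0 := by linear_combination h1
    exact (mul_eq_zero.1 h8).resolve_left E.two_ne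
  have hk : ∀ t t', k (t + t') = k t + k t' := by
    intro t t'
    have h1 := hR t t'
    rw [E.hmul] at h1
    have h2 := (E.inj h1).2.2
    rw [hg, ha3] at h2
    simp only [one_mul, mul_zero, sub_zero] at h2
    linear_combination -h2
  have hk1 : ∀ y : K, y ≠ 0 → k y = y ^ 2 * E.φ y * k 1 := by
    intro y hy
    have hφy : E.φ y ≠ 0 := (_root_.map_ne_zero _).2 hy
    have hyy : y ^ 2 * E.φ y ≠ 0 := mul_ne_zero (pow_ne_zero 2 hy) hφy
    set r : Kˣ := Units.mk0 (y ^ 2 * E.φ y) hyy with hr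
    have hr' : (r : K) = y ^ 2 * E.φ y := rfl
    have hchi : (E.φ r)⁻¹ * (r : K) ^ 2 = y := by
      rw [hr', map_mul, E.hφφ, map_pow]
      field_simp
    have h4 : E.h r * E.us 1 0 0 * (E.h r)⁻¹ = E.us y 0 0 := by
      rw [E.hconj, hchi]; congr 1 <;> simp
    have h5 := congrArg α h4
    rw [map_mul, map_mul, map_inv, hH, hα, hα, E.hconj] at h5
    have h6 := (E.inj h5).2.2
    simp only [add_zero] at h6
    rw [← h6, hr']
  have hk2 : k 1 = 0 := by
    have hx0 : x ≠ 0 := by rintro rfl; simp at hx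
    have hx1 : x - 1 ≠ 0 := by
      intro h
      have : x = 1 := by linear_combination h
      rw [this] at hx; simp at hx
    have hx2 : x + 1 ≠ 0 := by
      intro h
      have : x = -1 := by linear_combination h
      rw [this] at hx; simp at hx
    have h1 := hk x 1
    rw [hk1 x hx0, hk1 _ hx2, map_add, map_one] at h1
    have h2 : ((x - 1) * (x - E.φ x)) * k 1 = 0 := by linear_combination h1 - (x * E.φ x + x) * k 1 * E.h3
    exact (mul_eq_zero.1 h2).resolve_left (mul_ne_zero hx1 hxφ)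
  have hk3 : ∀ t, k t = 0 := by
    intro t
    by_cases ht : t = 0
    · have := hk 0 0
      rw [ht]
      simpa using this
    · rw [hk1 t ht, hk2, mul_zero]
  rw [hα, hg, hk3, ha3]
  simp

/-- there is an element of `H` whose square is not trivial -/
theorem exists_big : ∃ s : Kˣ, E.h s * E.h s ≠ 1 ∧ ∀ r : Kˣ, ∃ k : ℕ, E.h s ^ k = E.h r := by
  classical
  obtain ⟨ζ, hζ⟩ := IsCyclic.exists_generator (α := Kˣ)
  have hpow : ∀ k : ℕ, E.h ζ ^ k = E.h (ζ ^ k) := by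
    intro k
    induction k with
    | zero => rw [pow_zero, pow_zero, E.h_one]
    | succ k ih => rw [pow_succ, ih, E.hh, ← pow_succ]
  refine ⟨ζ, ?_, ?_⟩
  · intro h1
    rw [E.hh, ← sq] at h1
    have h2 := E.hconj (ζ ^ 2) 0 0 1
    rw [h1, inv_one, mul_one, one_mul] at h2
    have h3 := (E.inj h2).2.2
    have h4 : ζ ^ 2 = 1 := by
      apply Units.ext
      rw [Units.val_one]; rw [mul_one] at h3; exact h3.symm
    have h5 : orderOf ζ ∣ 2 := orderOf_dvd_of_pow_eq_one h4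
    rw [orderOf_eq_card_of_forall_mem_zpowers hζ, Nat.card_eq_fintype_card, Fintype.card_units] at h5
    have := E.D.q_ge
    have := Nat.le_of_dvd (by norm_num) h5
    omega
  · intro r
    obtain ⟨k, hk⟩ := mem_powers_iff_mem_zpowers.2 (hζ r)
    change ζ ^ k = r at hk
    exact ⟨k, by rw [hpow, hk]⟩

/-- the points fixed by `H` -/
theorem fixed_H {x : G ⧸ E.D.B} (hx : ∀ s, E.h s • x = x) : x = E.D.o ∨ x = E.D.z := by
  by_cases hxo : x = E.D.o
  · exact Or.inl hxo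
  right
  obtain ⟨u, hu, rfl⟩ := E.D.exists_u hxo
  obtain ⟨s, hs, -⟩ := E.exists_big
  have h1 := (E.D.H_fix (E.h_memH s) hu).1 (hx s)
  rw [E.D.fpf (E.h_memH s) hs hu h1, one_smul]

theorem decomp {g : G} (hg : g • E.D.o ≠ E.D.o) : ∃ u ∈ E.D.U, ∃ b ∈ E.D.B, g = u * E.D.n * b := by
  obtain ⟨u, hu, h1⟩ := E.D.exists_u hg
  refine ⟨u, hu, (u * E.D.n)⁻¹ * g, ?_, by group⟩
  rw [← E.D.smul_o, mul_smul, ← h1, mul_inv_rev, mul_smul, inv_smul_smul, inv_smul_eq_iff]
  show E.D.z = E.D.n • E.D.o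
  unfold RD.z RD.o
  show _ = (QuotientGroup.mk (E.D.n * 1) : G ⧸ E.D.B)
  rw [mul_one]

theorem decompB {b : G} (hb : b ∈ E.D.B) : ∃ u ∈ E.D.U, ∃ h ∈ E.D.H, b = u * h := by
  have h1 : b • E.D.z ≠ E.D.o := by
    intro h
    rw [← E.D.smul_o.2 hb] at h
    exact E.D.o_ne_z (MulAction.injective b h).symm
  obtain ⟨u, hu, h2⟩ := E.D.exists_u h1
  refine ⟨u, hu, u⁻¹ * b, E.D.stab2.1 ⟨?_, ?_⟩, by group⟩
  · rw [mul_smul, E.D.smul_o.2 hb, E.D.smul_o.2 (inv_mem (E.D.hUB hu))]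
  · rw [mul_smul, ← h2, inv_smul_smul]

theorem n_o : E.D.n • E.D.o = E.D.z := by
  unfold RD.z RD.o
  show (QuotientGroup.mk (E.D.n * 1) : G ⧸ E.D.B) = _
  rw [mul_one]

theorem conjn {h : G} (hh : h ∈ E.D.H) : E.D.n⁻¹ * h * E.D.n ∈ E.D.H := by
  let f : E.D.H → E.D.H := fun k => ⟨E.D.n * k * E.D.n⁻¹, E.D.nH k k.2⟩
  have hf : Function.Injective f := by
    intro a b hab
    have := congrArg Subtype.val hab
    simpa [f] using this
  obtain ⟨k, hk⟩ := (Finite.injective_iff_surjective.mp hf) ⟨h, hh⟩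
  have h1 : E.D.n * k * E.D.n⁻¹ = h := congrArg Subtype.val hk
  rw [← h1]
  have : E.D.n⁻¹ * (E.D.n * k * E.D.n⁻¹) * E.D.n = k := by group
  rw [this]; exact k.2

theorem n_z : E.D.n • E.D.z = E.D.o := by
  have h1 : ∀ s, E.h s • (E.D.n • E.D.z) = E.D.n • E.D.z := by
    intro s
    have h2 := E.D.H_smul_z (E.conjn (E.h_memH s))
    rw [mul_smul, mul_smul, inv_smul_eq_iff] at h2
    exact h2
  rcases E.fixed_H h1 with h | h
  · exact h
  · exfalso
    have h2 : E.D.n • E.D.z = E.D.n • E.D.o := by rw [h, E.n_o]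
    exact E.D.o_ne_z (MulAction.injective _ h2).symm

/-- an automorphism fixing `U` and `H` elementwise is trivial -/
theorem eq_one_of_fix (α : MulAut G) (hU : ∀ t u v, α (E.us t u v) = E.us t u v) (hH : ∀ s, α (E.h s) = E.h s) :
    α = 1 := by
  have hU' : ∀ x ∈ E.D.U, α x = x := by
    intro x hx
    obtain ⟨t, u, v, rfl⟩ := (E.memU x).1 hx
    exact hU t u v
  have hH' : ∀ x ∈ E.D.H, α x = x := by
    intro x hx
    obtain ⟨s, rfl⟩ := (E.memH x).1 hx
    exact hH s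
  have hB : ∀ b ∈ E.D.B, α b = b := by
    intro b hb
    obtain ⟨u, hu, h, hh, rfl⟩ := E.decompB hb
    rw [map_mul, hU' u hu, hH' h hh]
  have key : ∀ x : G ⧸ E.D.B, (∀ s, E.h s • x = x) → ∀ s, E.h s • (α E.D.n • x) = α E.D.n • x := by
    intro x hx s
    have h1 : (E.D.n⁻¹ * E.h s * E.D.n) • x = x := by
      obtain ⟨r, hr⟩ := (E.memH _).1 (E.conjn (E.h_memH s))
      rw [hr, hx]
    have h2 : α (E.D.n⁻¹ * E.h s * E.D.n) = E.D.n⁻¹ * E.h s * E.D.n := hH' _ (E.conjn (E.h_memH s))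
    rw [map_mul, map_mul, map_inv, hH] at h2
    rw [← h2, mul_smul, mul_smul, inv_smul_eq_iff] at h1
    exact h1
  have ho : ∀ s, E.h s • E.D.o = E.D.o := fun s => E.D.smul_o.2 (E.D.hHB (E.h_memH s))
  have hz : ∀ s, E.h s • E.D.z = E.D.z := fun s => E.D.H_smul_z (E.h_memH s)
  have h1 : α E.D.n • E.D.o = E.D.z := by
    rcases E.fixed_H (key _ ho) with h | h
    · exfalso
      have h2 := hB _ (E.D.smul_o.1 h)
      have h3 := α.injective h2
      rw [h3] at h
      exact E.D.nB (E.D.smul_o.1 h)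
    · exact h
  have h2 : α E.D.n • E.D.z = E.D.o := by
    rcases E.fixed_H (key _ hz) with h | h
    · exact h
    · exfalso
      have h3 : α E.D.n • E.D.z = α E.D.n • E.D.o := by rw [h, h1]
      exact E.D.o_ne_z (MulAction.injective _ h3).symm
  set k := α E.D.n * E.D.n⁻¹ with hk
  have hkH : k ∈ E.D.H := by
    refine E.D.stab2.1 ⟨?_, ?_⟩
    · rw [hk, mul_smul, ← h2]
      congr 1
      rw [h2, inv_smul_eq_iff, E.n_z]
    · rw [hk, mul_smul]
      rw [show E.D.n⁻¹ • E.D.z = E.D.o by rw [inv_smul_eq_iff, E.n_o], h1]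
  have hαn : α E.D.n = k * E.D.n := by rw [hk]; group
  -- an element outside of `B`
  set x := E.us 0 0 1 with hx
  have hx1 : x ≠ 1 := by
    intro h
    rw [hx, ← E.us_zero] at h
    exact one_ne_zero (E.inj h).2.2
  have hxU : x ∈ E.D.U := E.us_memU _ _ _
  have hg : (E.D.n * x * E.D.n⁻¹) • E.D.o ≠ E.D.o := by
    intro h
    rw [mul_smul, mul_smul, show E.D.n⁻¹ • E.D.o = E.D.z by rw [inv_smul_eq_iff, E.n_z],
      ← eq_inv_smul_iff, show E.D.n⁻¹ • E.D.o = E.D.z by rw [inv_smul_eq_iff, E.n_z]] at h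
    exact hx1 (E.D.U_inf_H hxU (E.D.stab2.1 ⟨E.D.smul_o.2 (E.D.hUB hxU), h⟩))
  obtain ⟨u, hu, b, hb, e⟩ := E.decomp hg
  have h3 : k * (E.D.n * x * E.D.n⁻¹) * k⁻¹ = u * k * E.D.n * b := by
    have h4 := congrArg α e
    rw [map_mul, map_mul, map_inv, map_mul, map_mul, hαn, hU' x hxU, hU' u hu, hB b hb] at h4
    calc k * (E.D.n * x * E.D.n⁻¹) * k⁻¹ = k * E.D.n * x * (k * E.D.n)⁻¹ := by group
      _ = u * (k * E.D.n) * b := h4
      _ = _ := by group
  rw [e] at h3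
  have hbo := E.D.smul_o.2 hb
  have h4 : k • (u • E.D.z) = u • E.D.z := by
    have h5 := congrArg (fun g => g • E.D.o) h3
    simp only [mul_smul] at h5
    rw [E.D.smul_o.2 (E.D.hHB (inv_mem hkH)), hbo, E.n_o, E.D.H_smul_z hkH] at h5
    exact h5
  have h5 := (E.D.H_fix hkH hu).1 h4
  have h6 : k = 1 := by
    rw [h5] at h3
    have h7 : k * u * E.D.n * b * k⁻¹ = k * u * E.D.n * b := by
      rw [← mul_assoc, ← mul_assoc] at h3; exact h3
    rw [mul_eq_left, inv_eq_one] at h7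
    exact h7
  have hn : α E.D.n = E.D.n := by rw [hαn, h6, one_mul]
  ext g
  rw [MulAut.one_apply]
  by_cases hgo : g • E.D.o = E.D.o
  · exact hB g (E.D.smul_o.1 hgo)
  · obtain ⟨u, hu, b, hb, rfl⟩ := E.decomp hgo
    rw [map_mul, map_mul, hU' u hu, hB b hb, hn]

theorem pU : IsPGroup 3 E.D.U := by
  refine IsPGroup.of_card (n := 3 * (2 * m + 1)) ?_
  rw [E.D.card_U, E.D.hK, ← pow_mul, mul_comm]

theorem norm1 (α : MulAut G) : ∃ g : G, ∀ x ∈ E.D.U, (MulAut.conj g * α) x ∈ E.D.U := by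
  obtain ⟨g, hg⟩ := E.D.three_conj (Q := E.D.U.map α.toMonoidHom) (E.pU.map _)
  exact ⟨g, fun x hx => hg _ ⟨x, hx, rfl⟩⟩

theorem norm_surj (ψ : MulAut G) (hU : ∀ x ∈ E.D.U, ψ x ∈ E.D.U) : ∀ x ∈ E.D.U, ∃ y ∈ E.D.U, ψ y = x := by
  intro x hx
  let f : E.D.U → E.D.U := fun k => ⟨ψ k, hU k k.2⟩
  have hf : Function.Injective f := by
    intro a b hab
    exact Subtype.ext (ψ.injective (congrArg Subtype.val hab))
  obtain ⟨k, hk⟩ := (Finite.injective_iff_surjective.mp hf) ⟨x, hx⟩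
  exact ⟨k, k.2, congrArg Subtype.val hk⟩

theorem conjU {b : G} (hb : b ∈ E.D.B) {x : G} (hx : x ∈ E.D.U) : b⁻¹ * x * b ∈ E.D.U := by
  have := E.D.nU b⁻¹ (inv_mem hb) x hx
  rwa [inv_inv] at this

/-- a conjugate of `U` contained in `U` -/
theorem mem_B_of_conj {g : G} (hg : ∀ x ∈ E.D.U, g⁻¹ * x * g ∈ E.D.U) : g ∈ E.D.B := by
  have hx1 : E.us 0 0 1 ≠ 1 := by
    intro h
    rw [← E.us_zero] at h
    exact one_ne_zero (E.inj h).2.2
  have hxU := E.us_memU 0 0 1
  rw [← E.D.smul_o]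
  refine E.D.three_uniq hx1 (RD.isPGroup_of_mem E.pU hxU) ?_ (E.D.smul_o.2 (E.D.hUB hxU))
  have h1 := E.D.smul_o.2 (E.D.hUB (hg _ hxU))
  rw [mul_smul, mul_smul, inv_smul_eq_iff] at h1
  exact h1

theorem norm2 (ψ : MulAut G) (hU : ∀ x ∈ E.D.U, ψ x ∈ E.D.U) {b : G} (hb : b ∈ E.D.B) : ψ b ∈ E.D.B := by
  apply E.mem_B_of_conj
  intro x hx
  obtain ⟨y, hy, rfl⟩ := E.norm_surj ψ hU x hx
  rw [← map_inv, ← map_mul, ← map_mul]
  exact hU _ (E.conjU hb hy)

theorem exists_norm (α : MulAut G) : ∃ g : G, (∀ x ∈ E.D.U, (MulAut.conj g * α) x ∈ E.D.U) ∧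
    (∀ s, (MulAut.conj g * α) (E.h s) ∈ E.D.H) := by
  obtain ⟨g, hg⟩ := E.norm1 α
  set ψ := MulAut.conj g * α with hψ
  obtain ⟨ζ, hζ1, hζ⟩ := E.exists_big
  have hB := E.norm2 ψ hg (E.D.hHB (E.h_memH ζ))
  have hord : ¬ 3 ∣ orderOf (ψ (E.h ζ)) := by
    rw [MulEquiv.orderOf_eq]
    intro h
    exact E.D.three_not_dvd_sub (h.trans (E.D.orderOf_H (E.h_memH ζ)))
  obtain ⟨y, hyo, hy⟩ := E.D.exists_second hord (E.D.smul_o.2 hB)
  obtain ⟨u, hu, rfl⟩ := E.D.exists_u hyo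
  have hH : u⁻¹ * ψ (E.h ζ) * u ∈ E.D.H := by
    refine E.D.stab2.1 ⟨?_, ?_⟩
    · exact E.D.smul_o.2 (mul_mem (mul_mem (inv_mem (E.D.hUB hu)) hB) (E.D.hUB hu))
    · rw [mul_smul, mul_smul, hy, inv_smul_smul]
  refine ⟨u⁻¹ * g, ?_, ?_⟩
  · intro x hx
    have := mul_mem (mul_mem (inv_mem hu) (hg x hx)) hu
    rw [hψ] at this
    simpa [mul_assoc] using this
  · intro s
    obtain ⟨k, hk⟩ := hζ s
    rw [← hk, map_pow]
    apply pow_mem
    rw [hψ] at hH
    simpa [mul_assoc] using hH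

/-- the centre of `U` -/
theorem mem_Z_iff (t u v : K) : (∀ x ∈ E.D.U, E.us t u v * x = x * E.us t u v) ↔ t = 0 ∧ u = 0 := by
  constructor
  · intro h
    have h1 := h _ (E.us_memU 0 1 0)
    rw [E.hmul, E.hmul] at h1
    have h2 := (E.inj h1).2.2
    simp at h2
    have ht : t = 0 := by linear_combination h2
    subst ht
    have h3 := h _ (E.us_memU 1 0 0)
    rw [E.hmul, E.hmul] at h3
    have h4 := (E.inj h3).2.2
    simp at h4
    exact ⟨rfl, h4⟩
  · rintro ⟨rfl, rfl⟩ x hx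
    obtain ⟨t', u', v', rfl⟩ := (E.memU x).1 hx
    rw [E.hmul, E.hmul]
    congr 1
    · ring
    · simp
    · simp [add_comm]

theorem inn_mul (g : G) (ψ : MulAut G) : (QuotientGroup.mk (MulAut.conj g * ψ) : Cfsg.Out G) = QuotientGroup.mk ψ := by
  have h1 : (QuotientGroup.mk (MulAut.conj g) : Cfsg.Out G) = 1 := (QuotientGroup.eq_one_iff _).mpr ⟨g, rfl⟩
  rw [QuotientGroup.mk_mul, h1, one_mul]

theorem exists_field (α : MulAut G) : ∃ σ : K ≃+* K,
    (QuotientGroup.mk α : Cfsg.Out G) = QuotientGroup.mk (E.fa σ) := by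
  obtain ⟨g, hgU, hgH⟩ := E.exists_norm α
  rw [← inn_mul g α]
  generalize MulAut.conj g * α = ψ at hgU hgH
  have hf : ∀ v, ∃ w, ψ (E.us 0 0 v) = E.us 0 0 w := by
    intro v
    obtain ⟨t', u', v', e⟩ := (E.memU _).1 (hgU _ (E.us_memU 0 0 v))
    have h1 : ∀ x ∈ E.D.U, E.us t' u' v' * x = x * E.us t' u' v' := by
      intro x hx
      obtain ⟨y, hy, rfl⟩ := E.norm_surj ψ hgU x hx
      rw [← e, ← map_mul, ← map_mul, (E.mem_Z_iff 0 0 v).2 ⟨rfl, rfl⟩ y hy]
    obtain ⟨rfl, rfl⟩ := (E.mem_Z_iff _ _ _).1 h1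
    exact ⟨v', e⟩
  choose f hf using hf
  have hH' : ∀ s, ∃ r : Kˣ, ψ (E.h s) = E.h r := fun s => (E.memH _).1 (hgH s)
  choose χ hχ using hH'
  have hfadd : ∀ v w, f (v + w) = f v + f w := by
    intro v w
    have h1 : E.us 0 0 v * E.us 0 0 w = E.us 0 0 (v + w) := by
      rw [E.hmul]; congr 1 <;> simp
    have h2 := congrArg ψ h1
    rw [map_mul, hf, hf, hf, E.hmul] at h2
    have h3 := (E.inj h2).2.2
    simp at h3
    exact h3.symm
  have hfmul : ∀ (s : Kˣ) v, f (s * v) = χ s * f v := by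
    intro s v
    have h1 := E.hconj s 0 0 v
    simp only [mul_zero] at h1
    have h2 := congrArg ψ h1
    rw [map_mul, map_mul, map_inv, hf, hf, hχ, E.hconj] at h2
    exact (E.inj h2).2.2.symm
  have hf0 : f 0 = 0 := by
    have := hfadd 0 0
    simpa using this
  have hfinj : ∀ v, f v = 0 → v = 0 := by
    intro v hv
    have h1 := hf v
    rw [hv, E.us_zero, map_eq_one_iff ψ ψ.injective, ← E.us_zero] at h1
    exact (E.inj h1).2.2
  have hc : f 1 ≠ 0 := fun h => one_ne_zero (hfinj 1 h)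
  set c : Kˣ := Units.mk0 (f 1) hc with hcdef
  -- the field automorphism
  let σ₀ : K →+* K :=
    { toFun := fun v => (f 1)⁻¹ * f v
      map_one' := inv_mul_cancel₀ hc
      map_zero' := by rw [hf0, mul_zero]
      map_add' := fun v w => by rw [hfadd, mul_add]
      map_mul' := fun v w => by
        by_cases hv : v = 0
        · rw [hv, zero_mul, hf0, mul_zero, zero_mul]
        · have h1 := hfmul (Units.mk0 v hv) w
          have h2 := hfmul (Units.mk0 v hv) 1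
          rw [Units.val_mk0] at h1 h2
          rw [mul_one] at h2
          rw [h1, h2]
          field_simp }
  have hσinj : Function.Injective σ₀ := σ₀.injective
  let σ : K ≃+* K := RingEquiv.ofBijective σ₀ ⟨hσinj, Finite.injective_iff_surjective.mp hσinj⟩
  have hσ : ∀ v, σ v = (f 1)⁻¹ * f v := fun v => rfl
  have hσχ : ∀ s : Kˣ, σ s = χ s := by
    intro s
    have h1 := hfmul s 1
    rw [mul_one] at h1
    rw [hσ, h1]
    field_simp
  refine ⟨σ, ?_⟩
  rw [← inn_mul (E.h c)⁻¹ ψ]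
  set ρ := MulAut.conj (E.h c)⁻¹ * ψ with hρ
  have hcinv : (E.h c)⁻¹ = E.h c⁻¹ := by
    rw [inv_eq_iff_mul_eq_one, E.hh, mul_inv_cancel, E.h_one]
  have hρ1 : ∀ v, ρ (E.us 0 0 v) = E.us 0 0 (σ v) := by
    intro v
    rw [hρ, MulAut.mul_apply, hf, hcinv, MulAut.conj_apply, E.hconj]
    congr 1
    · simp
    · simp
  have hρ2 : ∀ s, ρ (E.h s) = E.h (Units.map (σ : K →* K) s) := by
    intro s
    rw [hρ, MulAut.mul_apply, hχ, hcinv, MulAut.conj_apply, ← hcinv, inv_inv, hcinv, E.hh, E.hh]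
    congr 1
    rw [mul_comm c⁻¹, inv_mul_cancel_right]
    apply Units.ext
    rw [Units.coe_map]
    exact (hσχ s).symm
  have hρ3 : ∀ x ∈ E.D.U, ρ x ∈ E.D.U := by
    intro x hx
    rw [hρ, MulAut.mul_apply, hcinv, MulAut.conj_apply]
    exact E.D.nU _ (E.D.hHB (E.h_memH _)) _ (hgU x hx)
  have hfaU : ∀ x, E.fa σ x ∈ E.D.U → x ∈ E.D.U := by
    intro x hx
    obtain ⟨t, u, v, e⟩ := (E.memU _).1 hx
    have : x = E.us (σ.symm t) (σ.symm u) (σ.symm v) := by
      apply (E.fa σ).injective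
      rw [e, E.fa_us]; simp
    rw [this]; exact E.us_memU _ _ _
  have key : (E.fa σ)⁻¹ * ρ = 1 := by
    refine E.eq_one_of_fix _ (E.fix_U _ ?_ ?_ ?_) ?_
    · intro v
      rw [MulAut.mul_apply, hρ1, MulAut.inv_apply, MulEquiv.symm_apply_eq, E.fa_us, map_zero]
    · intro s
      rw [MulAut.mul_apply, hρ2, MulAut.inv_apply, MulEquiv.symm_apply_eq, E.fa_h]
    · intro x hx
      apply hfaU
      rw [MulAut.mul_apply, MulAut.apply_inv_self]
      exact hρ3 x hx
    · intro s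
      rw [MulAut.mul_apply, hρ2, MulAut.inv_apply, MulEquiv.symm_apply_eq, E.fa_h]
  rw [inv_mul_eq_one] at key
  rw [key]

theorem field_inj {σ τ : K ≃+* K}
    (h : (QuotientGroup.mk (E.fa σ) : Cfsg.Out G) = QuotientGroup.mk (E.fa τ)) : σ = τ := by
  rw [QuotientGroup.eq] at h
  obtain ⟨g, hg⟩ := h
  have hact : ∀ x, E.fa σ (g * x * g⁻¹) = E.fa τ x := by
    intro x
    have h1 := congrArg (fun y : MulAut G => E.fa σ (y x)) hg
    simpa using h1
  have hact2 : ∀ t u v, g * E.us t u v * g⁻¹ = E.us (σ.symm (τ t)) (σ.symm (τ u)) (σ.symm (τ v)) := by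
    intro t u v
    apply (E.fa σ).injective
    rw [hact, E.fa_us, E.fa_us, RingEquiv.apply_symm_apply, RingEquiv.apply_symm_apply, RingEquiv.apply_symm_apply]
  have hact3 : ∀ s, ∃ r, g * E.h s * g⁻¹ = E.h r := by
    intro s
    refine ⟨Units.map (σ.symm : K →* K) (Units.map (τ : K →* K) s), ?_⟩
    apply (E.fa σ).injective
    rw [hact, E.fa_h, E.fa_h]
    congr 1
    apply Units.ext
    simp
  have hgB : g⁻¹ ∈ E.D.B := by
    apply E.mem_B_of_conj
    intro x hx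
    obtain ⟨t, u, v, rfl⟩ := (E.memU x).1 hx
    rw [inv_inv, hact2]
    exact E.us_memU _ _ _
  have hgz : ∀ s, E.h s • (g⁻¹ • E.D.z) = g⁻¹ • E.D.z := by
    intro s
    obtain ⟨r, hr⟩ := hact3 s
    have h1 := E.D.H_smul_z (E.h_memH r)
    rw [← hr, mul_smul, mul_smul] at h1
    exact eq_inv_smul_iff.2 h1
  have hgH : g⁻¹ ∈ E.D.H := by
    refine E.D.stab2.1 ⟨E.D.smul_o.2 hgB, ?_⟩
    rcases E.fixed_H hgz with h | h
    · exfalso
      have h2 := E.D.smul_o.2 hgB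
      rw [← h2] at h
      exact E.D.o_ne_z (MulAction.injective _ h).symm
    · exact h
  obtain ⟨s, hs⟩ := (E.memH _).1 ((inv_mem_iff).1 hgH)
  have h2 : ∀ a, (s : K) * a = σ.symm (τ a) := by
    intro a
    have h3 := hact2 0 0 a
    rw [hs, E.hconj] at h3
    exact (E.inj h3).2.2
  have h4 : (s : K) = 1 := by
    have := h2 1
    rw [mul_one, map_one, map_one] at this
    exact this
  ext a
  have := h2 a
  rw [h4, one_mul, RingEquiv.eq_symm_apply] at this
  exact this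

include E in
theorem card_out : Nat.card (Cfsg.Out G) = Nat.card (K ≃+* K) := by
  refine (Nat.card_congr (Equiv.ofBijective (fun σ : K ≃+* K =>
    (QuotientGroup.mk (E.fa σ) : Cfsg.Out G)) ⟨?_, ?_⟩)).symm
  · intro σ τ h
    exact E.field_inj h
  · intro x
    obtain ⟨φ, rfl⟩ := QuotientGroup.mk_surjective x
    obtain ⟨σ, hσ⟩ := E.exists_field φ
    exact ⟨σ, hσ.symm⟩

end OD

end Cfsg.Agent.Lib.H26ReeOut
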