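import Cfsg.Agent.Lib.H26ReeOut
import Cfsg.Agent.Lib.H26ReeMult

/-!
# The outer automorphism group of the small Ree groups (helper26)
-/

set_option autoImplicit false

namespace Cfsg.Agent.Lib.H26ReeOut

open Cfsg.Lie Cfsg.Agent.Lib Cfsg.Agent.Lib.ChevX Cfsg.Agent.Lib.ChevGood Cfsg.Agent.Lib.ChevRel Cfsg.Agent.Lib.TwG2
  Cfsg.Agent.Lib.ChevFix Cfsg.Agent.Lib.TwTab
open scoped MatrixGroups

universe u

variable {K : Type u} [Field K]

theorem em_UU (τ : K →+* K) (e : ℕ) (t u v : K) : em chevG2 τ (UU e t u v) = UU e (τ t) (τ u) (τ v) := by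
  rw [UU_eq, UU_eq]
  simp only [map_mul, em_xg TwG2.G, map_pow, map_add]

theorem em_VV (τ : K →+* K) (e : ℕ) (t u v : K) : em chevG2 τ (VV e t u v) = VV e (τ t) (τ u) (τ v) := by
  rw [VV_eq, VV_eq]
  simp only [map_mul, em_xg TwG2.G, map_pow, map_add, map_neg]

theorem em_mem (τ : K →+* K) (e : ℕ) {g : GL chevG2.Idx K} (hg : g ∈ twistedG2 K e) : em chevG2 τ g ∈ twistedG2 K e := by
  have h : twistedG2 K e ≤ (twistedG2 K e).comap (em chevG2 τ) := by
    conv_lhs => unfold twistedG2 ChevalleyDatum.genSubgroup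
    rw [Subgroup.closure_le]
    rintro g ⟨w, ⟨t, u, v, hw⟩, hg⟩
    rw [eq_wg TwG2.G hg]
    rcases hw with rfl | rfl
    · have h1 : em chevG2 τ (UU e t u v) ∈ twistedG2 K e := by rw [em_UU]; exact mem_UU _ _ _ _
      exact h1
    · have h1 : em chevG2 τ (VV e t u v) ∈ twistedG2 K e := by rw [em_VV]; exact mem_VV _ _ _ _
      exact h1
  exact h hg

theorem em_em (σ τ : K →+* K) (h : ∀ x, σ (τ x) = x) (g : GL chevG2.Idx K) : em chevG2 σ (em chevG2 τ g) = g := by
  apply Units.ext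
  ext i j
  rw [coe_em, coe_em]
  exact h _

/-- the field automorphisms of the Ree groups -/
noncomputable def fieldAut (e : ℕ) (τ : K ≃+* K) : MulAut ↥(twistedG2 K e) where
  toFun g := ⟨em chevG2 (τ : K →+* K) g, em_mem _ e g.2⟩
  invFun g := ⟨em chevG2 (τ.symm : K →+* K) g, em_mem _ e g.2⟩
  left_inv g := Subtype.ext (em_em _ _ (fun x => τ.symm_apply_apply x) _)
  right_inv g := Subtype.ext (em_em _ _ (fun x => τ.apply_symm_apply x) _)
  map_mul' g h := Subtype.ext (map_mul _ _ _)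

theorem em_th (τ : K →+* K) (e : ℕ) (s : K) : em chevG2 τ (th e s) = th e (τ s) := by
  unfold th HP
  simp only [List.map_cons, List.map_nil, List.prod_cons, List.prod_nil, map_mul, map_one, em_hg TwG2.G, map_pow]

variable [Fintype K] {m : ℕ} (hK : Fintype.card K = 3 ^ (2 * m + 1))

/-- the data for the Ree groups -/
noncomputable def od (hm : 1 ≤ m) : OD ↥(twistedG2 K (3 ^ m)) K m :=
  have hc3 : CharP K 3 := TwG2.char3 hK
  have hφ' : ∀ x : K, iterateFrobenius K 3 (m + 1) x = (x ^ 3 ^ m) ^ 3 := fun x => by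
    show x ^ 3 ^ (m + 1) = _
    rw [pow_succ, pow_mul]
  { D := ReeQ.rd hK hm
    φ := iterateFrobenius K 3 (m + 1)
    us := fun t u v => ⟨UU (3 ^ m) t u v, mem_UU _ _ _ _⟩
    h := fun s => ⟨th (3 ^ m) (s : K), th_mem hK s.ne_zero⟩
    h3 := by exact_mod_cast CharP.cast_eq_zero K 3
    hφφ := fun x => by
      rw [hφ' ((iterateFrobenius K 3 (m + 1)) x), hφ' x, TwG2.hT hK]
    hφ := by
      have h3 : (3 : K) = 0 := by exact_mod_cast CharP.cast_eq_zero K 3
      have hc27 : 27 ≤ Fintype.card K := by rw [hK]; exact ReeA.pow_ge hm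
      obtain ⟨x, hx0, hx1, hx⟩ := H26ReeMult.exists_inv h3 hc27
      refine ⟨x, fun hφx => hx ?_⟩
      have h4 : x ^ 3 = x := by
        have h5 := TwG2.hT hK x
        have h6 : (x ^ 3 ^ m) ^ 3 = x := by rw [← hφ', hφx]
        have h7 : x ^ 3 ^ m = x := by rwa [h6] at h5
        rwa [h7] at h6
      have h5 : x = 1 := by
        have : x * (x + 1) * (x - 1) = 0 := by linear_combination h4
        have := (mul_eq_zero.1 this).resolve_left (mul_ne_zero hx0 hx1)
        linear_combination this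
      subst h5
      have h6 : (1 + 1 : K) = -1 := by linear_combination h3
      rw [h6, inv_neg, inv_one, h6]
    memU := fun g => by
      show g ∈ (chevG2.posUnipotent K ⊓ twistedG2 K (3 ^ m)).subgroupOf (twistedG2 K (3 ^ m)) ↔ _
      rw [Subgroup.mem_subgroupOf, mem_U_iff hK]
      exact ⟨fun ⟨t, u, v, h⟩ => ⟨t, u, v, Subtype.ext h⟩, fun ⟨t, u, v, h⟩ => ⟨t, u, v, congrArg Subtype.val h⟩⟩
    memH := fun g => by
      show g ∈ (chevG2.diagonalSubgroup K ⊓ twistedG2 K (3 ^ m)).subgroupOf (twistedG2 K (3 ^ m)) ↔ _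
      rw [Subgroup.mem_subgroupOf]
      constructor
      · intro h
        obtain ⟨s, hs, h1⟩ := ReeQ.exists_th' hK h
        exact ⟨Units.mk0 s hs, Subtype.ext h1⟩
      · rintro ⟨s, rfl⟩
        exact ⟨th_memH hK s.ne_zero, th_mem hK s.ne_zero⟩
    inj := fun {t u v t' u' v'} h => UU_inj hK (congrArg Subtype.val h)
    hmul := fun t u v t' u' v' => by
      apply Subtype.ext
      show UU (3 ^ m) t u v * UU (3 ^ m) t' u' v' = _
      rw [H26Ree.UU_mul hK]
      simp only [hφ']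
    hh := fun s t => Subtype.ext (th_mul (T hK) _ s.ne_zero t.ne_zero)
    hconj := fun s t u v => by
      apply Subtype.ext
      show th (3 ^ m) (s : K) * UU (3 ^ m) t u v * (th (3 ^ m) (s : K))⁻¹ = _
      rw [th_UU hK s.ne_zero]
      simp only [hφ']
    fa := fieldAut (3 ^ m)
    fa_us := fun τ t u v => Subtype.ext (em_UU _ _ _ _ _)
    fa_h := fun τ s => Subtype.ext (em_th _ _ _) }

end Cfsg.Agent.Lib.H26ReeOut
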