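import Cfsg.Agent.Lib.Star68
import Cfsg.Agent.S0071

/-!
# S4233, piece B1: the centralizer of an involution (helper2)
-/

set_option autoImplicit false
set_option linter.all false

namespace Cfsg.Agent.Lib.H2StarB1

open Cfsg.Agent.Lib.Star68

section
variable {G : Type*} [Group G]

/-- elements of a product -/
theorem mem_sup_of {Q T : Subgroup G} (hn : ∀ a ∈ T, ∀ x ∈ Q, a * x * a⁻¹ ∈ Q) {z : G} (hz : z ∈ Q ⊔ T) :
    ∃ x ∈ Q, ∃ a ∈ T, z = x * a := by
  rw [Subgroup.sup_eq_closure] at hz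
  induction hz using Subgroup.closure_induction with
  | mem z hz =>
    rcases hz with hz | hz
    · exact ⟨z, hz, 1, T.one_mem, by simp⟩
    · exact ⟨1, Q.one_mem, z, hz, by simp⟩
  | one => exact ⟨1, Q.one_mem, 1, T.one_mem, by simp⟩
  | mul z z' _ _ h1 h2 =>
    obtain ⟨x, hx, a, ha, rfl⟩ := h1
    obtain ⟨y, hy, b, hb, rfl⟩ := h2
    exact ⟨x * (a * y * a⁻¹), Q.mul_mem hx (hn a ha y hy), a * b, T.mul_mem ha hb, by group⟩
  | inv z _ h1 =>
    obtain ⟨x, hx, a, ha, rfl⟩ := h1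
    refine ⟨a⁻¹ * x⁻¹ * a⁻¹⁻¹, hn _ (T.inv_mem ha) _ (Q.inv_mem hx), a⁻¹, T.inv_mem ha, by group⟩

/-- elements of a `p`-group and a `q`-group -/
theorem eq_one_of {p q : ℕ} (hp : p.Prime) (hq : q.Prime) (hpq : p ≠ q) {H K : Subgroup G} (hH : IsPGroup p H)
    (hK : IsPGroup q K) {x : G} (h1 : x ∈ H) (h2 : x ∈ K) : x = 1 := by
  haveI := Fact.mk hp
  haveI := Fact.mk hq
  have h3 := IsPGroup.disjoint_of_ne p q hpq H K hH hK
  exact Subgroup.disjoint_def.mp h3 h1 h2

theorem conj_mem {H : Subgroup G} {g : G} (hg : g ∈ Subgroup.normalizer (H : Set G)) {x : G} (hx : x ∈ H) :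
    g * x * g⁻¹ ∈ H := (Subgroup.mem_normalizer_iff.mp hg x).mp hx

theorem conj_mem' {H : Subgroup G} {g : G} (hg : g ∈ Subgroup.normalizer (H : Set G)) {x : G} (hx : x ∈ H) :
    g⁻¹ * x * g ∈ H := by
  have := conj_mem (Subgroup.inv_mem _ hg) hx
  rwa [inv_inv] at this

variable [Finite G]

theorem pow_card_mem {H : Subgroup G} {x : G} (hx : x ∈ H) : x ^ Nat.card H = 1 := by
  have h1 : (⟨x, hx⟩ : H) ^ Nat.card H = 1 := pow_card_eq_one'
  exact congrArg Subtype.val h1

/-- normalizers: the inclusion -/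
theorem nz_le (h : Star68.Star G) {p q : ℕ} (hp : p.Prime) (hq : q.Prime) (hpq : p ≠ q) {H Q : Subgroup G}
    (hH : IsPGroup p H) (hH1 : H ≠ ⊥) (hQ : IsPGroup q Q) (hc : ∀ x ∈ H, ∀ y ∈ Q, x * y = y * x) :
    Subgroup.normalizer (H : Set G) ≤ Subgroup.normalizer (Q : Set G) := by
  haveI := Fact.mk hp
  haveI := Fact.mk hq
  have hle : Q ≤ Subgroup.normalizer (H : Set G) := by
    intro y hy
    rw [Subgroup.mem_normalizer_iff]
    intro x
    constructor
    · intro hx
      rw [← hc x hx y hy, mul_inv_cancel_right]; exact hx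
    · intro hx
      have h1 := hc _ hx y hy
      have h2 : y * x * y⁻¹ * y = y * x := by group
      rw [h2] at h1
      have h3 : x = y * x * y⁻¹ := mul_left_cancel h1
      rw [h3]; exact hx
  have h1 := h.nrm p q H Q hp hq hpq hH hH1 hQ hle
  -- `Q` is the set of elements killed by its order
  have key : ∀ z ∈ H ⊔ Q, z ^ Nat.card Q = 1 → z ∈ Q := by
    intro z hz hz1
    rw [sup_comm] at hz
    obtain ⟨y, hy, x, hx, rfl⟩ := mem_sup_of (Q := Q) (T := H) (fun a ha x hx => by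
      rw [hc a ha x hx, mul_inv_cancel_right]; exact hx) hz
    have hcom : Commute y x := (hc x hx y hy).symm
    rw [hcom.mul_pow, pow_card_mem hy, one_mul] at hz1
    obtain ⟨k, hk⟩ := (IsPGroup.iff_card (p := q)).mp hQ
    obtain ⟨j, hj⟩ := (IsPGroup.iff_orderOf (p := p)).mp hH ⟨x, hx⟩
    rw [Subgroup.orderOf_mk] at hj
    have h2 : orderOf x ∣ q ^ k := by rw [← hk]; exact orderOf_dvd_of_pow_eq_one hz1
    have h3 : Nat.Coprime (orderOf x) (q ^ k) := by
      rw [hj]; exact Nat.Coprime.pow _ _ ((Nat.coprime_primes hp hq).mpr hpq)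
    have h4 : orderOf x = 1 := Nat.Coprime.eq_one_of_dvd h3 h2
    rw [orderOf_eq_one_iff] at h4
    rw [h4, mul_one]; exact hy
  have key2 : ∀ g ∈ Subgroup.normalizer (H : Set G), ∀ y ∈ Q, g * y * g⁻¹ ∈ Q := by
    intro g hg y hy
    apply key
    · exact conj_mem (h1 hg) (Subgroup.mem_sup_right hy)
    · rw [conj_pow, pow_card_mem hy]; group
  intro g hg
  rw [Subgroup.mem_normalizer_iff]
  intro y
  refine ⟨key2 g hg y, fun hy => ?_⟩
  have := key2 g⁻¹ (Subgroup.inv_mem _ hg) _ hy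
  have e : g⁻¹ * (g * y * g⁻¹) * g⁻¹⁻¹ = y := by group
  rwa [e] at this

/-- normalizers: equality -/
theorem nz_eq (h : Star68.Star G) {p q : ℕ} (hp : p.Prime) (hq : q.Prime) (hpq : p ≠ q) {H Q : Subgroup G}
    (hH : IsPGroup p H) (hH1 : H ≠ ⊥) (hQ : IsPGroup q Q) (hQ1 : Q ≠ ⊥) (hc : ∀ x ∈ H, ∀ y ∈ Q, x * y = y * x) :
    Subgroup.normalizer (H : Set G) = Subgroup.normalizer (Q : Set G) := by
  have h1 := nz_le h hp hq hpq hH hH1 hQ hc
  have h2 := h.max p H hp hH hH1
  have h3 := h.max q Q hq hQ hQ1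
  rcases h1.lt_or_eq with h4 | h4
  · exact absurd (h2.2 _ h4) h3.1
  · exact h4

theorem nz_zpowers {t : G} (ht : orderOf t = 2) :
    Subgroup.normalizer ((Subgroup.zpowers t : Subgroup G) : Set G) = Subgroup.centralizer ({t} : Set G) := by
  have ht2 : t ^ 2 = 1 := by rw [← ht]; exact pow_orderOf_eq_one t
  have ht1 : t ≠ 1 := fun h => by rw [h, orderOf_one] at ht; omega
  have hmem : ∀ y ∈ Subgroup.zpowers t, y = 1 ∨ y = t := by
    rintro y ⟨n, rfl⟩
    rcases Int.even_or_odd' n with ⟨m, rfl | rfl⟩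
    · left
      show t ^ (2 * m) = 1
      rw [zpow_mul]
      have : t ^ (2 : ℤ) = 1 := by exact_mod_cast ht2
      rw [this, one_zpow]
    · right
      show t ^ (2 * m + 1) = t
      rw [zpow_add, zpow_mul, zpow_one]
      have : t ^ (2 : ℤ) = 1 := by exact_mod_cast ht2
      rw [this, one_zpow, one_mul]
  ext g
  rw [Subgroup.mem_centralizer_singleton_iff]
  constructor
  · intro hg
    have h1 := conj_mem hg (Subgroup.mem_zpowers t)
    rcases hmem _ h1 with h2 | h2
    · exfalso; apply ht1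
      have : t = g⁻¹ * (g * t * g⁻¹) * g := by group
      rw [this, h2]; group
    · first
      | exact (mul_inv_eq_iff_eq_mul.mp h2)
      | exact (mul_inv_eq_iff_eq_mul.mp h2).symm
  · intro hg
    have hg' : g * t = t * g := by first | exact hg | exact hg.symm
    rw [Subgroup.mem_normalizer_iff]
    have key : ∀ g : G, g * t = t * g → ∀ x ∈ Subgroup.zpowers t, g * x * g⁻¹ ∈ Subgroup.zpowers t := by
      intro g hg x hx
      rcases hmem x hx with rfl | rfl
      · simpa using Subgroup.one_mem _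
      · rw [hg, mul_inv_cancel_right]; exact Subgroup.mem_zpowers _
    intro x
    refine ⟨key g hg' x, fun hx => ?_⟩
    have h3 : g⁻¹ * t = t * g⁻¹ := by
      rw [inv_mul_eq_iff_eq_mul, ← mul_assoc, hg', mul_inv_cancel_right]
    have := key g⁻¹ h3 _ hx
    have e : g⁻¹ * (g * x * g⁻¹) * g⁻¹⁻¹ = x := by group
    rwa [e] at this

theorem zp_pgroup {t : G} (ht : orderOf t = 2) : IsPGroup 2 (Subgroup.zpowers t) := by
  rw [IsPGroup.iff_card]
  exact ⟨1, by rw [Nat.card_zpowers, ht, pow_one]⟩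

theorem zp_pgroup' {y : G} {p k : ℕ} [Fact p.Prime] (hy : y ^ p ^ k = 1) : IsPGroup p (Subgroup.zpowers y) := by
  rw [IsPGroup.iff_card]
  have h1 : orderOf y ∣ p ^ k := orderOf_dvd_of_pow_eq_one hy
  obtain ⟨j, _, hj⟩ := (Nat.dvd_prime_pow Fact.out).mp h1
  exact ⟨j, by rw [Nat.card_zpowers, hj]⟩

theorem zp_ne {t : G} (ht : orderOf t = 2) : Subgroup.zpowers t ≠ ⊥ := by
  intro h
  rw [Subgroup.zpowers_eq_bot] at h
  rw [h, orderOf_one] at ht
  omega

theorem mem_C {t g : G} (hg : g ∈ Subgroup.centralizer ({t} : Set G)) : ∀ x ∈ Subgroup.zpowers t, ∀ y ∈ Subgroup.zpowers g, x * y = y * x := by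
  have h1 : Commute t g := by
    rw [Subgroup.mem_centralizer_singleton_iff] at hg
    first | exact hg | exact hg.symm
  rintro _ ⟨m, rfl⟩ _ ⟨n, rfl⟩
  exact (h1.zpow_zpow m n).eq

/-- cyclic subgroups of odd prime power order of `C` are normalized by `C` -/
theorem nz_cyc (h : Star68.Star G) {t : G} (ht : orderOf t = 2) {p k : ℕ} (hp : p.Prime) (hp2 : p ≠ 2) {y : G}
    (hy : y ∈ Subgroup.centralizer ({t} : Set G)) (hyk : y ^ p ^ k = 1) :
    Subgroup.centralizer ({t} : Set G) ≤ Subgroup.normalizer ((Subgroup.zpowers y : Subgroup G) : Set G) := by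
  haveI := Fact.mk hp
  rw [← nz_zpowers ht]
  exact nz_le h Nat.prime_two hp hp2.symm (zp_pgroup ht) (zp_ne ht) (zp_pgroup' hyk) (mem_C hy)

/-- a Sylow 2-subgroup of `C` does not centralize `Q` -/
theorem no_cent (h : Star68.Star G) (hFT : ∀ N : Subgroup G, Odd (Nat.card N) → Group.IsSolvable N) (hns : ¬ Group.IsSolvable G)
    {t : G} (ht : orderOf t = 2) {q : ℕ} (hq : q.Prime) (hq2 : q ≠ 2) {Q : Subgroup G} (hQ : IsPGroup q Q) (hQ1 : Q ≠ ⊥)
    (hNQ : Subgroup.normalizer (Q : Set G) = Subgroup.centralizer ({t} : Set G)) {T : Subgroup G}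
    (hTC : T ≤ Subgroup.centralizer ({t} : Set G)) (hT : IsPGroup 2 T)
    (hmax : ∀ S : Subgroup G, S ≤ Subgroup.centralizer ({t} : Set G) → IsPGroup 2 S → T ≤ S → S = T)
    (hcent : ∀ a ∈ T, ∀ x ∈ Q, a * x = x * a) : False := by
  set C := Subgroup.centralizer ({t} : Set G) with hC
  have htC : Subgroup.zpowers t ≤ C := by
    rw [Subgroup.zpowers_le, hC, Subgroup.mem_centralizer_singleton_iff]
  have hT1 : T ≠ ⊥ := by
    intro hbot
    have := hmax _ htC (zp_pgroup ht) (by rw [hbot]; exact bot_le)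
    rw [hbot] at this
    exact zp_ne ht this
  have hN : ∀ T0 : Subgroup G, T0 ≤ T → T0 ≠ ⊥ → Subgroup.normalizer (T0 : Set G) = C := by
    intro T0 hT0 hne
    rw [← hNQ]
    exact nz_eq h Nat.prime_two hq hq2.symm (hT.to_le hT0) hne hQ hQ1 (fun x hx y hy => hcent x (hT0 hx) y hy)
  have hNT := hN T le_rfl hT1
  -- `T` is a Sylow subgroup of `G`
  obtain ⟨S, hS⟩ := hT.exists_le_sylow
  have hST : (S : Subgroup G) = T := by
    by_contra hne
    have hlt : T < (S : Subgroup G) := lt_of_le_of_ne hS (fun h => hne h.symm)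
    haveI : Fact (Nat.Prime 2) := ⟨Nat.prime_two⟩
    have hnil : Group.IsNilpotent (S : Subgroup G) := S.2.isNilpotent
    have hlt' : T.subgroupOf (S : Subgroup G) < ⊤ := by
      rw [lt_top_iff_ne_top]
      intro htop
      rw [Subgroup.subgroupOf_eq_top] at htop
      exact absurd (le_antisymm htop hS) hne
    have h1 := Group.normalizerCondition_of_isNilpotent (G := (S : Subgroup G)) _ hlt'
    obtain ⟨g, hg1, hg2⟩ := SetLike.exists_of_lt h1
    have hgN : (g : G) ∈ Subgroup.normalizer (T : Set G) := by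
      rw [Subgroup.mem_normalizer_iff]
      intro x
      rw [Subgroup.mem_normalizer_iff] at hg1
      constructor
      · intro hx
        have := (hg1 ⟨x, hS hx⟩).mp (Subgroup.mem_subgroupOf.mpr hx)
        exact Subgroup.mem_subgroupOf.mp this
      · intro hx
        have hxS : x ∈ (S : Subgroup G) := by
          have h2 := hS hx
          have h3 := (S : Subgroup G).mul_mem ((S : Subgroup G).mul_mem ((S : Subgroup G).inv_mem g.2) h2) g.2
          have e : (g : G)⁻¹ * ((g : G) * x * (g : G)⁻¹) * (g : G) = x := by group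
          rwa [e] at h3
        have := (hg1 ⟨x, hxS⟩).mpr (Subgroup.mem_subgroupOf.mpr hx)
        exact Subgroup.mem_subgroupOf.mp this
    have h4 : (S : Subgroup G) ⊓ C = T := by
      apply hmax _ inf_le_right (S.2.to_le inf_le_left) (le_inf hS hTC)
    apply hg2
    rw [Subgroup.mem_subgroupOf, ← h4]
    rw [hNT] at hgN
    exact ⟨g.2, hgN⟩
  -- odd elements of `C` centralize `T`
  have hodd : ∀ n : ℕ, Odd n → ∀ g ∈ C, g ^ n = 1 → ∀ a ∈ T, a * g = g * a := by
    intro n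
    induction n using Nat.recOnPosPrimePosCoprime with
    | zero => intro hn; exact absurd hn (by decide)
    | one => intro _ g _ hg a _; rw [pow_one] at hg; rw [hg]; simp
    | prime_pow p k hp hk =>
      intro hn g hg hgn a ha
      have hp2 : p ≠ 2 := by
        rintro rfl
        rw [Nat.odd_pow_iff hk.ne'] at hn
        exact absurd hn (by decide)
      haveI := Fact.mk hp
      have h1 := nz_cyc h ht hp hp2 hg hgn
      have h2 : a * g * a⁻¹ ∈ Subgroup.zpowers g := conj_mem (h1 (hTC ha)) (Subgroup.mem_zpowers g)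
      have h3 : g⁻¹ * a * g ∈ T := by
        apply conj_mem' _ ha
        rw [hNT]; exact hg
      have h4 : g⁻¹ * (a * g * a⁻¹) = 1 := by
        apply eq_one_of hp Nat.prime_two hp2 (zp_pgroup' hgn) hT
        · exact Subgroup.mul_mem _ (Subgroup.inv_mem _ (Subgroup.mem_zpowers g)) h2
        · have : g⁻¹ * (a * g * a⁻¹) = g⁻¹ * a * g * a⁻¹ := by group
          rw [this]; exact T.mul_mem h3 (T.inv_mem ha)
      have h5 := inv_mul_eq_one.mp h4
      rw [eq_mul_inv_iff_mul_eq] at h5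
      exact h5.symm
    | coprime m n hm hn hmn ihm ihn =>
      intro hodd g hg hgn a ha
      rw [Nat.odd_mul] at hodd
      have h1 := ihm hodd.1 (g ^ n) (C.pow_mem hg n) (by rw [← pow_mul, mul_comm]; exact hgn) a ha
      have h2 := ihn hodd.2 (g ^ m) (C.pow_mem hg m) (by rw [← pow_mul]; exact hgn) a ha
      have hcm : Commute a (g ^ n) := h1
      have hcn : Commute a (g ^ m) := h2
      have hb := Nat.gcd_eq_gcd_ab m n
      rw [hmn.gcd_eq_one] at hb
      have e : g = (g ^ m) ^ (Nat.gcdA m n) * (g ^ n) ^ (Nat.gcdB m n) := by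
        rw [← zpow_natCast g m, ← zpow_natCast g n, ← zpow_mul, ← zpow_mul, ← zpow_add, ← hb]
        simp
      rw [e]
      exact ((hcn.zpow_right _).mul_right (hcm.zpow_right _)).eq
  -- Frobenius
  haveI : Fact (Nat.Prime 2) := ⟨Nat.prime_two⟩
  obtain ⟨N, hNn, hNc⟩ := (Cfsg.Agent.S0071.result (p := 2) S).mpr (by
    intro Q0 hQ0 g hg hgo
    rw [hST] at hQ0
    by_cases hb : Q0 = ⊥
    · rw [hb, Subgroup.mem_centralizer_iff]
      intro x hx
      have : x = 1 := hx
      rw [this]; simp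
    · rw [hN Q0 hQ0 hb] at hg
      rw [Subgroup.mem_centralizer_iff]
      intro x hx
      have ho : Odd (orderOf g) := by
        rw [Nat.odd_iff]
        have : ¬ 2 ∣ orderOf g := by
          intro h2
          have := Nat.dvd_gcd h2 (dvd_refl 2)
          rw [hgo.gcd_eq_one] at this
          omega
        omega
      exact hodd _ ho g hg (pow_orderOf_eq_one g) x (hQ0 hx))
  apply hns
  have hcard := hNc.card_mul
  have hNodd : Odd (Nat.card N) := by
    have h1 := S.card_eq_multiplicity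
    have h2 : Nat.card N = (S : Subgroup G).index := by
      have h3 := (S : Subgroup G).index_mul_card
      have h4 : 0 < Nat.card (S : Subgroup G) := Nat.card_pos
      exact Nat.eq_of_mul_eq_mul_right h4 (hcard.trans h3.symm)
    rw [h2, Nat.odd_iff]
    have h5 := S.not_dvd_index
    omega
  have h6 : Group.IsSolvable N := hFT N hNodd
  haveI := hNn
  have h7 : Group.IsSolvable (G ⧸ N) := by
    have h8 : IsPGroup 2 (G ⧸ N) := by
      rw [IsPGroup.iff_card]
      obtain ⟨k, hk⟩ := (IsPGroup.iff_card (p := 2)).mp S.2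
      refine ⟨k, ?_⟩
      rw [← hk]
      have h3 := N.index_mul_card
      have h4 : 0 < Nat.card N := Nat.card_pos
      show N.index = _
      exact Nat.eq_of_mul_eq_mul_right h4 (h3.trans (by rw [← hcard, mul_comm]))
    have : Group.IsNilpotent (G ⧸ N) := h8.isNilpotent
    infer_instance
  exact (Group.isSolvable_iff_subgroup_quotient N).mpr ⟨h6, h7⟩

/-- `T` centralizes `Q` if both are normalized by `C` -/
theorem cent_of {q : ℕ} (hq : q.Prime) (hq2 : q ≠ 2) {C Q T : Subgroup G} (hQ : IsPGroup q Q) (hT : IsPGroup 2 T)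
    (hTC : T ≤ C) (hQC : Q ≤ C) (hNQ : C ≤ Subgroup.normalizer (Q : Set G)) (hNT : ∀ g ∈ C, ∀ a ∈ T, g * a * g⁻¹ ∈ T) :
    ∀ a ∈ T, ∀ x ∈ Q, a * x = x * a := by
  intro a ha x hx
  have h1 : a * x * a⁻¹ * x⁻¹ = 1 := by
    apply eq_one_of hq Nat.prime_two hq2 hQ hT
    · exact Q.mul_mem (conj_mem (hNQ (hTC ha)) hx) (Q.inv_mem hx)
    · have e : a * x * a⁻¹ * x⁻¹ = a * (x * a⁻¹ * x⁻¹) := by group
      rw [e]
      exact T.mul_mem ha (hNT x (hQC hx) _ (T.inv_mem ha))
  have h2 : a * x * (x * a)⁻¹ = 1 := by rw [← h1]; group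
  exact mul_inv_eq_one.mp h2

/-- case of a second subgroup of prime order -/
theorem caseR (h : Star68.Star G) {t : G} (ht : orderOf t = 2) {q : ℕ} (hq : q.Prime) (hq2 : q ≠ 2) {Q : Subgroup G}
    (hQc : Nat.card Q = q) (hQC : Q ≤ Subgroup.centralizer ({t} : Set G))
    (hNQ : Subgroup.normalizer (Q : Set G) = Subgroup.centralizer ({t} : Set G)) {T : Subgroup G}
    (hTC : T ≤ Subgroup.centralizer ({t} : Set G)) (hT : IsPGroup 2 T)
    {r : ℕ} (hr : r.Prime) (hr2 : r ≠ 2) {y : G} (hy : y ∈ Subgroup.centralizer ({t} : Set G)) (hyr : orderOf y = r)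
    (hyQ : y ∉ Q) : ∀ a ∈ T, ∀ x ∈ Q, a * x = x * a := by
  haveI := Fact.mk hq
  haveI := Fact.mk hr
  set C := Subgroup.centralizer ({t} : Set G) with hC
  have hQ : IsPGroup q Q := IsPGroup.iff_card.mpr ⟨1, by rw [hQc, pow_one]⟩
  have hQ1 : Q ≠ ⊥ := by
    intro hb; rw [hb, Subgroup.card_bot] at hQc; exact hq.ne_one hQc.symm
  have hyk : y ^ r ^ 1 = 1 := by rw [pow_one, ← hyr]; exact pow_orderOf_eq_one y
  set R := Subgroup.zpowers y with hR
  have hRp : IsPGroup r R := zp_pgroup' hyk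
  have hRC : R ≤ C := by rw [hR, Subgroup.zpowers_le]; exact hy
  have hR1 : R ≠ ⊥ := by
    intro hb; rw [hR, Subgroup.zpowers_eq_bot] at hb
    rw [hb, orderOf_one] at hyr; exact hr.ne_one hyr.symm
  have hNR : Subgroup.normalizer (R : Set G) = C := by
    rw [hC, ← nz_zpowers ht]
    exact (nz_eq h Nat.prime_two hr hr2.symm (zp_pgroup ht) (zp_ne ht) hRp hR1 (mem_C hy)).symm
  have h1 : C ≤ Subgroup.normalizer ((Q ⊔ T : Subgroup G) : Set G) := by
    rw [← hNQ]
    exact h.nrm q 2 Q T hq Nat.prime_two hq2 hQ hQ1 hT (by rw [hNQ]; exact hTC)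
  have h2 : C ≤ Subgroup.normalizer ((R ⊔ T : Subgroup G) : Set G) := by
    rw [← hNR]
    exact h.nrm r 2 R T hr Nat.prime_two hr2 hRp hR1 hT (by rw [hNR]; exact hTC)
  have hint : ∀ x ∈ Q, x ∈ R → x = 1 := by
    intro x hx hxR
    by_contra hx1
    apply hyQ
    have h3 : Subgroup.zpowers x = R := by
      have h4 : Subgroup.zpowers x ≤ R := by rw [Subgroup.zpowers_le]; exact hxR
      apply Subgroup.eq_of_le_of_card_ge h4
      have h5 : Nat.card (Subgroup.zpowers x) ∣ Nat.card R := Subgroup.card_dvd_of_le h4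
      rw [Nat.card_zpowers, Nat.card_zpowers, hyr] at h5
      rcases (Nat.dvd_prime hr).mp h5 with h6 | h6
      · rw [orderOf_eq_one_iff] at h6; exact absurd h6 hx1
      · rw [Nat.card_zpowers, Nat.card_zpowers, h6, hyr]
    have h7 : y ∈ Subgroup.zpowers x := by rw [h3]; exact Subgroup.mem_zpowers y
    have h8 : Subgroup.zpowers x ≤ Q := by rw [Subgroup.zpowers_le]; exact hx
    exact h8 h7
  have hcomm : ∀ x ∈ Q, ∀ y' ∈ R, Commute x y' := by
    intro x hx y' hy'
    have h3 : x * y' * x⁻¹ * y'⁻¹ = 1 := by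
      apply hint
      · have e : x * y' * x⁻¹ * y'⁻¹ = x * (y' * x⁻¹ * y'⁻¹) := by group
        rw [e]
        refine Q.mul_mem hx (conj_mem (H := Q) ?_ (Q.inv_mem hx))
        rw [hNQ]; exact hRC hy'
      · refine R.mul_mem (conj_mem (H := R) ?_ hy') (R.inv_mem hy')
        rw [hNR]; exact hQC hx
    have h4 : x * y' * (y' * x)⁻¹ = 1 := by rw [← h3]; group
    exact mul_inv_eq_one.mp h4
  apply cent_of hq hq2 hQ hT hTC hQC (by rw [hNQ])
  intro g hg a ha
  have m1 : g * a * g⁻¹ ∈ Q ⊔ T := conj_mem (h1 hg) (Subgroup.mem_sup_right ha)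
  have m2 : g * a * g⁻¹ ∈ R ⊔ T := conj_mem (h2 hg) (Subgroup.mem_sup_right ha)
  obtain ⟨x, hx, b, hb, e1⟩ := mem_sup_of (fun a ha x hx => conj_mem (H := Q) (by rw [hNQ]; exact hTC ha) hx) m1
  obtain ⟨y', hy', b', hb', e2⟩ := mem_sup_of (fun a ha x hx => conj_mem (H := R) (by rw [hNR]; exact hTC ha) hx) m2
  have e3 : y'⁻¹ * x = b' * b⁻¹ := by
    rw [e1] at e2
    rw [inv_mul_eq_iff_eq_mul, ← mul_assoc, eq_mul_inv_iff_mul_eq]; exact e2
  have e4 : y'⁻¹ * x = 1 := by
    have h3 : (y'⁻¹ * x) ∈ T := by rw [e3]; exact T.mul_mem hb' (T.inv_mem hb)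
    obtain ⟨k, hk⟩ := (IsPGroup.iff_orderOf (p := 2)).mp hT ⟨_, h3⟩
    rw [Subgroup.orderOf_mk] at hk
    have hc : Commute y'⁻¹ x := (hcomm x hx y' hy').symm.inv_left
    have h5 : (y'⁻¹ * x) ^ (r * q) = 1 := by
      have hxq : x ^ q = 1 := by rw [← hQc]; exact pow_card_mem hx
      have hyr' : y'⁻¹ ^ r = 1 := by
        have : Nat.card R = r := by rw [hR, Nat.card_zpowers, hyr]
        rw [← this]; exact pow_card_mem (R.inv_mem hy')
      rw [hc.mul_pow, pow_mul, hyr', one_pow, mul_comm r q, pow_mul, hxq, one_pow, one_mul]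
    have h6 : orderOf (y'⁻¹ * x) ∣ r * q := orderOf_dvd_of_pow_eq_one h5
    have h7 : Nat.Coprime (orderOf (y'⁻¹ * x)) (r * q) := by
      rw [hk]
      apply Nat.Coprime.pow_left
      exact Nat.Coprime.mul_right ((Nat.coprime_primes Nat.prime_two hr).mpr hr2.symm)
        ((Nat.coprime_primes Nat.prime_two hq).mpr hq2.symm)
    exact orderOf_eq_one_iff.mp (Nat.Coprime.eq_one_of_dvd h7 h6)
  have e5 : x = 1 := by
    apply hint x hx
    rw [← inv_mul_eq_one.mp e4]; exact hy'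
  rw [e1, e5, one_mul]; exact hb

/-- case of an element of order `q²` -/
theorem caseY (h : Star68.Star G) {t : G} (ht : orderOf t = 2) {q : ℕ} (hq : q.Prime) (hq2 : q ≠ 2) {Q : Subgroup G}
    (hQc : Nat.card Q = q) (hQC : Q ≤ Subgroup.centralizer ({t} : Set G))
    (hNQ : Subgroup.normalizer (Q : Set G) = Subgroup.centralizer ({t} : Set G)) {T : Subgroup G}
    (hTC : T ≤ Subgroup.centralizer ({t} : Set G)) (hT : IsPGroup 2 T)
    {y : G} (hy : y ∈ Subgroup.centralizer ({t} : Set G)) (hyr : orderOf y = q ^ 2)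
    (hQy : Q ≤ Subgroup.zpowers y) : ∀ a ∈ T, ∀ x ∈ Q, a * x = x * a := by
  haveI := Fact.mk hq
  set C := Subgroup.centralizer ({t} : Set G) with hC
  have hQ : IsPGroup q Q := IsPGroup.iff_card.mpr ⟨1, by rw [hQc, pow_one]⟩
  have hQ1 : Q ≠ ⊥ := by
    intro hb; rw [hb, Subgroup.card_bot] at hQc; exact hq.ne_one hQc.symm
  have hyk : y ^ q ^ 2 = 1 := by rw [← hyr]; exact pow_orderOf_eq_one y
  have hNy := nz_cyc h ht hq hq2 hy hyk
  have h1 : C ≤ Subgroup.normalizer ((Q ⊔ T : Subgroup G) : Set G) := by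
    rw [← hNQ]
    exact h.nrm q 2 Q T hq Nat.prime_two hq2 hQ hQ1 hT (by rw [hNQ]; exact hTC)
  have hyp : IsPGroup q (Subgroup.zpowers y) := zp_pgroup' hyk
  have key : ∀ a ∈ T, a * y ^ q * a⁻¹ = y ^ q := by
    intro a ha
    -- `z = y⁻¹ (a y a⁻¹)` lies in `Q`
    have m1 : y⁻¹ * (a * y * a⁻¹) ∈ Subgroup.zpowers y :=
      Subgroup.mul_mem _ (Subgroup.inv_mem _ (Subgroup.mem_zpowers y)) (conj_mem (hNy (hTC ha)) (Subgroup.mem_zpowers y))
    have m2 : y⁻¹ * (a * y * a⁻¹) ∈ Q ⊔ T := by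
      have e : y⁻¹ * (a * y * a⁻¹) = (y⁻¹ * a * y) * a⁻¹ := by group
      rw [e]
      exact Subgroup.mul_mem _ (conj_mem' (h1 hy) (Subgroup.mem_sup_right ha))
        (Subgroup.inv_mem _ (Subgroup.mem_sup_right ha))
    obtain ⟨x, hx, b, hb, e1⟩ := mem_sup_of (fun a ha x hx => conj_mem (H := Q) (by rw [hNQ]; exact hTC ha) hx) m2
    have e2 : b = 1 := by
      apply eq_one_of hq Nat.prime_two hq2 hyp hT _ hb
      have e3 : b = x⁻¹ * (y⁻¹ * (a * y * a⁻¹)) := by rw [e1]; group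
      rw [e3]
      exact Subgroup.mul_mem _ (Subgroup.inv_mem _ (hQy hx)) m1
    rw [e2, mul_one] at e1
    have e4 : a * y * a⁻¹ = y * x := by rw [← e1]; group
    have e5 : Commute y x := by
      obtain ⟨n, hn⟩ := hQy hx
      rw [← hn]
      exact (Commute.refl y).zpow_right n
    rw [← conj_pow, e4, e5.mul_pow]
    have : x ^ q = 1 := by rw [← hQc]; exact pow_card_mem hx
    rw [this, mul_one]
  -- `Q = ⟨y ^ q⟩`
  have hQeq : Q ≤ Subgroup.zpowers (y ^ q) := by
    intro x hx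
    obtain ⟨n, hn⟩ := hQy hx
    have hn' : y ^ n = x := hn
    have h3 : x ^ q = 1 := by rw [← hQc]; exact pow_card_mem hx
    rw [← hn', ← zpow_natCast, ← zpow_mul] at h3
    have h4 : ((orderOf y : ℕ) : ℤ) ∣ n * (q : ℤ) := orderOf_dvd_iff_zpow_eq_one.mpr h3
    rw [hyr] at h4
    have h5 : (q : ℤ) ∣ n := by
      have hq0 : (q : ℤ) ≠ 0 := by exact_mod_cast hq.ne_zero
      push_cast at h4
      rw [pow_two] at h4
      exact Int.dvd_of_mul_dvd_mul_right hq0 h4
    obtain ⟨m, rfl⟩ := h5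
    refine ⟨m, ?_⟩
    show (y ^ q) ^ m = x
    rw [← hn', zpow_mul, zpow_natCast]
  intro a ha x hx
  obtain ⟨m, hm⟩ := hQeq hx
  have hm' : (y ^ q) ^ m = x := hm
  have h3 : Commute a (y ^ q) := by
    have := key a ha
    rw [mul_inv_eq_iff_eq_mul] at this
    exact this
  rw [← hm']
  exact (h3.zpow_right m).eq

/-- piece B1 with the odd order theorem as a hypothesis -/
theorem core (h : Star68.Star G) (hFT : ∀ N : Subgroup G, Odd (Nat.card N) → Group.IsSolvable N)
    (hns : ¬ Group.IsSolvable G) (t : G) (ht : orderOf t = 2)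
    (hnot : ¬ IsPGroup 2 (Subgroup.centralizer ({t} : Set G))) : ∃ (q : ℕ) (Q : Subgroup G), Star68.QS t q Q := by
  haveI h2f : Fact (Nat.Prime 2) := ⟨Nat.prime_two⟩
  set C := Subgroup.centralizer ({t} : Set G) with hC
  have hC0 : Nat.card C ≠ 0 := Nat.card_pos.ne'
  -- an odd prime
  obtain ⟨q, hq, hq2, hqC⟩ : ∃ q : ℕ, q.Prime ∧ q ≠ 2 ∧ q ∣ Nat.card C := by
    by_contra hcon
    push Not at hcon
    apply hnot
    rw [IsPGroup.iff_card]
    exact ⟨_, Nat.eq_prime_pow_of_unique_prime_dvd hC0 (fun {d} hd hdC => by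
      by_contra hd2
      exact hcon d hd hd2 hdC)⟩
  haveI := Fact.mk hq
  obtain ⟨x', hx'⟩ := exists_prime_orderOf_dvd_card' q hqC
  set x : G := (x' : G) with hx
  have hxo : orderOf x = q := by rw [hx, Subgroup.orderOf_coe]; exact hx'
  have hxC : x ∈ C := x'.2
  set Q := Subgroup.zpowers x with hQd
  have hQc : Nat.card Q = q := by rw [hQd, Nat.card_zpowers, hxo]
  have hQ : IsPGroup q Q := IsPGroup.iff_card.mpr ⟨1, by rw [hQc, pow_one]⟩
  have hQC : Q ≤ C := by rw [hQd, Subgroup.zpowers_le]; exact hxC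
  have hQ1 : Q ≠ ⊥ := by
    intro hb; rw [hb, Subgroup.card_bot] at hQc; exact hq.ne_one hQc.symm
  have hNQ : Subgroup.normalizer (Q : Set G) = C := by
    rw [hC, ← nz_zpowers ht]
    exact (nz_eq h Nat.prime_two hq hq2.symm (zp_pgroup ht) (zp_ne ht) hQ hQ1 (mem_C hxC)).symm
  -- a Sylow 2-subgroup of `C`
  let T' : Sylow 2 C := default
  set T : Subgroup G := (T' : Subgroup C).map C.subtype with hTd
  have hTC : T ≤ C := Subgroup.map_subtype_le _
  have hT : IsPGroup 2 T := T'.2.map _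
  have hmax : ∀ S : Subgroup G, S ≤ C → IsPGroup 2 S → T ≤ S → S = T := by
    intro S hSC hS hTS
    have h1 : IsPGroup 2 (S.subgroupOf C) := hS.comap_of_injective C.subtype C.subtype_injective
    have h2 : (T' : Subgroup C) ≤ S.subgroupOf C := by
      intro z hz
      rw [Subgroup.mem_subgroupOf]
      exact hTS ⟨z, hz, rfl⟩
    have h3 := T'.3 h1 h2
    rw [hTd, ← h3, Subgroup.subgroupOf_map_subtype, inf_eq_left.mpr hSC]
  have hcard : Nat.card T = Nat.card (T' : Subgroup C) :=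
    (Nat.card_congr ((T' : Subgroup C).equivMapOfInjective _ C.subtype_injective).toEquiv).symm
  have hno : ¬ (∀ a ∈ T, ∀ x ∈ Q, a * x = x * a) := fun hc =>
    no_cent h hFT hns ht hq hq2 hQ hQ1 hNQ hTC hT hmax hc
  obtain ⟨n, hn⟩ := (IsPGroup.iff_card (p := 2)).mp T'.2
  have hindex := (T' : Subgroup C).index_mul_card
  rw [hn] at hindex
  have hodd : ¬ 2 ∣ (T' : Subgroup C).index := T'.not_dvd_index
  -- the index is `q`
  have hcardC : Nat.card C = q * 2 ^ n := by
    set m := (T' : Subgroup C).index with hm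
    have hqm : q ∣ m := by
      rw [← hindex] at hqC
      rcases (Nat.Prime.dvd_mul hq).mp hqC with h1 | h1
      · exact h1
      · exact absurd ((Nat.prime_dvd_prime_iff_eq hq Nat.prime_two).mp (hq.dvd_of_dvd_pow h1)) hq2
    obtain ⟨m', hm'⟩ := hqm
    by_cases h1 : m' = 1
    · rw [← hindex, hm', h1, mul_one]
    exfalso
    apply hno
    obtain ⟨r, hr, hrm⟩ := Nat.exists_prime_and_dvd h1
    have hr2 : r ≠ 2 := by
      rintro rfl
      exact hodd (by rw [hm']; exact Dvd.dvd.mul_left hrm q)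
    haveI := Fact.mk hr
    by_cases hrq : r = q
    · subst hrq
      have hsq : r ^ 2 ∣ Nat.card C := by
        rw [← hindex, hm', pow_two]
        exact Dvd.dvd.mul_right (Nat.mul_dvd_mul_left r hrm) _
      have hQ' : Nat.card (Q.subgroupOf C) = r ^ 1 := by
        rw [pow_one, ← hQc]
        exact Nat.card_congr (Subgroup.subgroupOfEquivOfLe hQC).toEquiv
      obtain ⟨A, hA, hQA⟩ := Sylow.exists_subgroup_card_pow_prime_le r hsq (Q.subgroupOf C) hQ' (by norm_num)
      -- an element outside `Q`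
      obtain ⟨y', hy'A, hy'Q⟩ : ∃ y' ∈ A, y' ∉ Q.subgroupOf C := by
        by_contra hcon
        push Not at hcon
        have h3 : Nat.card A ≤ Nat.card (Q.subgroupOf C) := Subgroup.card_le_of_le hcon
        rw [hA, hQ', pow_one, pow_two] at h3
        have := hr.two_le
        nlinarith
      have ho : orderOf y' ∣ r ^ 2 := by
        have h3 : orderOf (⟨y', hy'A⟩ : A) ∣ Nat.card A := orderOf_dvd_natCard _
        rw [Subgroup.orderOf_mk, hA] at h3
        exact h3
      obtain ⟨j, hj, hoj⟩ := (Nat.dvd_prime_pow hr).mp ho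
      have hyC : (y' : G) ∈ C := y'.2
      have hyQ : (y' : G) ∉ Q := fun h3 => hy'Q (Subgroup.mem_subgroupOf.mpr h3)
      have hoG : orderOf (y' : G) = r ^ j := by rw [Subgroup.orderOf_coe]; exact hoj
      interval_cases j
      · exfalso
        rw [pow_zero, orderOf_eq_one_iff] at hoG
        exact hyQ (by rw [hoG]; exact Q.one_mem)
      · rw [pow_one] at hoG
        exact caseR h ht hq hq2 hQc hQC hNQ hTC hT hr hr2 hyC hoG hyQ
      · have hzA : Subgroup.zpowers y' = A := by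
          apply Subgroup.eq_of_le_of_card_ge
          · rw [Subgroup.zpowers_le]; exact hy'A
          · rw [Nat.card_zpowers, hoj, hA]
        refine caseY h ht hq hq2 hQc hQC hNQ hTC hT hyC hoG ?_
        intro z hz
        have h3 : (⟨z, hQC hz⟩ : C) ∈ A := hQA (Subgroup.mem_subgroupOf.mpr hz)
        rw [← hzA] at h3
        obtain ⟨k, hk⟩ := h3
        refine ⟨k, ?_⟩
        have := congrArg (Subtype.val) hk
        simpa using this
    · have hrC : r ∣ Nat.card C := by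
        rw [← hindex, hm']
        exact Dvd.dvd.mul_right (Dvd.dvd.mul_left hrm q) _
      obtain ⟨y', hy'⟩ := exists_prime_orderOf_dvd_card' r hrC
      have hoG : orderOf (y' : G) = r := by rw [Subgroup.orderOf_coe]; exact hy'
      refine caseR h ht hq hq2 hQc hQC hNQ hTC hT hr hr2 y'.2 hoG ?_
      intro hyQ
      have h3 : orderOf (⟨(y' : G), hyQ⟩ : Q) ∣ Nat.card Q := orderOf_dvd_natCard _
      rw [Subgroup.orderOf_mk, hoG, hQc] at h3
      exact hrq ((Nat.prime_dvd_prime_iff_eq hr hq).mp h3)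
  refine ⟨q, Q, hq, hq2, hQc, hNQ, ⟨n, hcardC⟩, ?_⟩
  intro S hSC hScard hc
  have hSc : Nat.card S = 2 ^ n := by
    rw [hcardC] at hScard
    exact (Nat.eq_of_mul_eq_mul_left hq.pos hScard).symm
  have hS : IsPGroup 2 S := IsPGroup.iff_card.mpr ⟨n, hSc⟩
  refine no_cent h hFT hns ht hq hq2 hQ hQ1 hNQ hSC hS ?_ hc
  intro S' hS'C hS' hle
  symm
  apply Subgroup.eq_of_le_of_card_ge hle
  obtain ⟨k, hk⟩ := (IsPGroup.iff_card (p := 2)).mp hS'
  have h3 : Nat.card S' ∣ Nat.card C := Subgroup.card_dvd_of_le hS'C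
  rw [hk, hcardC] at h3
  have h4 : 2 ^ k ∣ 2 ^ n := by
    apply Nat.Coprime.dvd_of_dvd_mul_left _ h3
    exact Nat.Coprime.pow_left _ ((Nat.coprime_primes Nat.prime_two hq).mpr hq2.symm)
  rw [hk, hSc]
  exact Nat.le_of_dvd (by positivity) h4

end

end Cfsg.Agent.Lib.H2StarB1
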