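import Mathlib

/-! Anisotropic quadratic maps over GF(2) with a transitive-like surjectivity property:
the isometry group is solvable (modulo the odd order theorem). (helper30) -/

set_option autoImplicit false

open Subgroup

universe u v w

namespace Cfsg.Agent.Lib.H30InvA

/-- a group with a self-normalizing abelian Sylow 2-subgroup is solvable -/
theorem solvable_of_sylow {G : Type u} [Group G] [Finite G]
    (hodd : ∀ {H : Type u} [Group H] [Finite H], Odd (Nat.card H) → Group.IsSolvable H)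
    (P : Sylow 2 G) (hP : Subgroup.normalizer ((P : Subgroup G) : Set G) ≤ Subgroup.centralizer ((P : Subgroup G) : Set G)) :
    Group.IsSolvable G := by
  have h1 := MonoidHom.not_dvd_card_ker_transferSylow P hP
  have h2 : Odd (Nat.card (MonoidHom.transferSylow P hP).ker) := by
    rw [← Nat.not_even_iff_odd, even_iff_two_dvd]; exact h1
  haveI := hodd h2
  haveI : Group.IsNilpotent (P : Subgroup G) := P.isPGroup'.isNilpotent
  have h3 : Group.IsSolvable (P : Subgroup G) := inferInstance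
  exact Group.isSolvable_of_ker_le_range (MonoidHom.transferSylow P hP).ker.subtype
    (MonoidHom.transferSylow P hP) (by rw [Subgroup.range_subtype])

structure Setup (I : Type v) (W : Type w) [AddCommGroup I] [AddCommGroup W] (G : Type u) [Group G]
    [DistribMulAction G I] where
  hI : ∀ x : I, x + x = 0
  hW : ∀ x : W, x + x = 0
  Q : I → W
  B : I →+ I →+ W
  hQ : ∀ x y, Q (x + y) = Q x + Q y + B x y
  aniso : ∀ x, Q x = 0 → x = 0
  surj : ∀ w, w ≠ 0 → ∀ x, ∃ y, B y w = Q x
  inv : ∀ (g : G) x, Q (g • x) = Q x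
  faith : ∀ g : G, (∀ x : I, g • x = x) → g = 1

variable {I : Type v} {W : Type w} [AddCommGroup I] [AddCommGroup W] {G : Type u} [Group G]
    [DistribMulAction G I]

namespace Setup

variable (D : Setup I W G)

include D

theorem B_eq (x y : I) : D.B x y = D.Q (x + y) - D.Q x - D.Q y := by
  rw [D.hQ]; abel

theorem B_inv (g : G) (x y : I) : D.B (g • x) (g • y) = D.B x y := by
  rw [D.B_eq, D.B_eq, ← smul_add, D.inv, D.inv, D.inv]

theorem neg_I (x : I) : -x = x := neg_eq_of_add_eq_zero_left (D.hI x)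
theorem neg_W (x : W) : -x = x := neg_eq_of_add_eq_zero_left (D.hW x)

/-- the map `x ↦ gx + x` -/
def d (_ : Setup I W G) (g : G) : I →+ I where
  toFun x := g • x + x
  map_zero' := by simp
  map_add' x y := by rw [smul_add]; abel

theorem d_apply (g : G) (x : I) : D.d g x = g • x + x := rfl

theorem mem_ker_d (g : G) (x : I) : x ∈ (D.d g).ker ↔ g • x = x := by
  rw [AddMonoidHom.mem_ker, D.d_apply]
  constructor
  · intro h
    have := eq_neg_of_add_eq_zero_left h
    rw [this, D.neg_I]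
  · intro h; rw [h, D.hI]

theorem range_le_ker {t : G} (ht : t * t = 1) : (D.d t).range ≤ (D.d t).ker := by
  rintro _ ⟨x, rfl⟩
  rw [D.mem_ker_d, D.d_apply, smul_add, ← mul_smul, ht, one_smul, add_comm]

theorem B_range_ker (t : G) {x y : I} (hx : x ∈ (D.d t).range) (hy : y ∈ (D.d t).ker) : D.B x y = 0 := by
  obtain ⟨s, rfl⟩ := hx
  rw [D.mem_ker_d] at hy
  rw [D.d_apply, map_add, AddMonoidHom.add_apply]
  nth_rewrite 1 [← hy]
  rw [D.B_inv, D.hW]

/-- the span of the values of `Q` -/
def V (D : Setup I W G) : AddSubgroup W := AddSubgroup.closure (Set.range D.Q)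

theorem Q_mem (x : I) : D.Q x ∈ D.V := AddSubgroup.subset_closure ⟨x, rfl⟩

theorem B_mem (x y : I) : D.B x y ∈ D.V := by
  rw [D.B_eq]
  exact D.V.sub_mem (D.V.sub_mem (D.Q_mem _) (D.Q_mem _)) (D.Q_mem _)

theorem range_flip {w : I} (hw : w ≠ 0) : (D.B.flip w).range = D.V := by
  apply le_antisymm
  · rintro _ ⟨x, rfl⟩
    exact D.B_mem x w
  · rw [V, AddSubgroup.closure_le]
    rintro _ ⟨x, rfl⟩
    obtain ⟨y, hy⟩ := D.surj w hw x
    exact ⟨y, hy⟩

/-- `Q` restricted to the range -/
def qL {t : G} (ht : t * t = 1) : (D.d t).range →+ D.V where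
  toFun x := ⟨D.Q x, D.Q_mem _⟩
  map_zero' := by
    apply Subtype.ext
    have := D.hQ 0 0
    simp only [add_zero, map_zero] at this
    simpa using this
  map_add' x y := by
    apply Subtype.ext
    change D.Q ((x : I) + y) = D.Q x + D.Q y
    rw [D.hQ, D.B_range_ker t x.2 (D.range_le_ker ht y.2), add_zero]

theorem qL_inj {t : G} (ht : t * t = 1) : Function.Injective (D.qL ht) := by
  rw [injective_iff_map_eq_zero]
  intro x hx
  have : D.Q (x : I) = 0 := congrArg Subtype.val hx
  exact Subtype.ext (D.aniso _ this)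

theorem card_eq [Finite I] (f : I →+ I) : Nat.card I = Nat.card f.range * Nat.card f.ker := by
  rw [← AddSubgroup.index_ker, AddSubgroup.index_mul_card]

theorem exists_ne {t : G} (ht1 : t ≠ 1) : ∃ w ∈ (D.d t).range, w ≠ 0 := by
  by_contra h
  push Not at h
  apply ht1
  apply D.faith
  intro x
  rw [← D.mem_ker_d, AddMonoidHom.mem_ker]
  exact h _ ⟨x, rfl⟩

variable [Finite I] [Finite W]

theorem card_facts {t : G} (ht : t * t = 1) {w : I} (hw : w ∈ (D.d t).range) (hw0 : w ≠ 0) :
    Nat.card (D.d t).range = Nat.card D.V ∧ (D.B.flip w).ker = (D.d t).ker := by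
  have h1 : Nat.card (D.d t).range ≤ Nat.card D.V := Nat.card_le_card_of_injective _ (D.qL_inj ht)
  have h2 : (D.d t).ker ≤ (D.B.flip w).ker := by
    intro y hy
    rw [AddMonoidHom.mem_ker, AddMonoidHom.flip_apply, D.B_eq, add_comm y w, sub_right_comm, ← D.B_eq]
    exact D.B_range_ker t hw hy
  have h3 : Nat.card (D.d t).ker ≤ Nat.card (D.B.flip w).ker :=
    Nat.card_le_card_of_injective _ (AddSubgroup.inclusion_injective h2)
  have h4 : Nat.card I = Nat.card (D.d t).range * Nat.card (D.d t).ker := by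
    rw [← AddSubgroup.index_ker, AddSubgroup.index_mul_card]
  have h5 : Nat.card I = Nat.card D.V * Nat.card (D.B.flip w).ker := by
    rw [← D.range_flip hw0, ← AddSubgroup.index_ker, AddSubgroup.index_mul_card]
  have p1 : 0 < Nat.card (D.d t).range := Nat.card_pos
  have p2 : 0 < Nat.card (D.d t).ker := Nat.card_pos
  have p3 : 0 < Nat.card D.V := Nat.card_pos
  have h6 : Nat.card (D.d t).range = Nat.card D.V := by
    apply le_antisymm h1
    have : Nat.card D.V * Nat.card (D.d t).ker ≤ Nat.card (D.d t).range * Nat.card (D.d t).ker := by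
      rw [← h4, h5]; exact Nat.mul_le_mul_left _ h3
    exact Nat.le_of_mul_le_mul_right this p2
  refine ⟨h6, (AddSubgroup.eq_of_le_of_card_ge h2 ?_).symm⟩
  have : Nat.card D.V * Nat.card (D.B.flip w).ker = Nat.card D.V * Nat.card (D.d t).ker := by
    rw [← h5, h4, h6]
  exact (Nat.eq_of_mul_eq_mul_left p3 this).le

theorem ker_eq_range {t : G} (ht : t * t = 1) (ht1 : t ≠ 1) : (D.d t).ker = (D.d t).range := by
  obtain ⟨w, hw, hw0⟩ := D.exists_ne ht1
  have h1 := (D.card_facts ht hw hw0).1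
  have h2 : Function.Bijective (D.qL ht) :=
    (Nat.bijective_iff_injective_and_card _).2 ⟨D.qL_inj ht, h1⟩
  apply le_antisymm _ (D.range_le_ker ht)
  intro c hc
  obtain ⟨x, hx⟩ := h2.2 ⟨D.Q c, D.Q_mem c⟩
  have hx' : D.Q (x : I) = D.Q c := congrArg Subtype.val hx
  have h3 : D.Q ((x : I) + c) = 0 := by
    rw [D.hQ, D.B_range_ker t x.2 hc, hx', add_zero, D.hW]
  have h4 := D.aniso _ h3
  have h5 : c = (x : I) := by
    have := eq_neg_of_add_eq_zero_right h4
    rw [this, D.neg_I]
  rw [h5]; exact x.2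

/-- stabilizer property -/
theorem stab_facts {t : G} (ht : t * t = 1) (ht1 : t ≠ 1) {g : G}
    (hg : ∀ x ∈ (D.d t).range, g • x ∈ (D.d t).range) :
    g * g = 1 ∧ (g ≠ 1 → (D.d g).range = (D.d t).range) := by
  obtain ⟨w, hw, hw0⟩ := D.exists_ne ht1
  have e1 := (D.card_facts ht hw hw0).2
  have e2 := D.ker_eq_range ht ht1
  have h1 : ∀ x ∈ (D.d t).range, g • x = x := by
    intro x hx
    rw [← D.mem_ker_d, AddMonoidHom.mem_ker, D.d_apply]
    apply D.aniso
    rw [D.hQ, D.inv, D.hW, zero_add]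
    exact D.B_range_ker t (hg x hx) (D.range_le_ker ht hx)
  have h2 : ∀ x, D.d g x ∈ (D.d t).range := by
    intro x
    rw [← e2, ← e1, AddMonoidHom.mem_ker, AddMonoidHom.flip_apply, D.d_apply, map_add,
      AddMonoidHom.add_apply]
    nth_rewrite 1 [← h1 w hw]
    rw [D.B_inv, D.hW]
  have h3 : g * g = 1 := by
    apply D.faith
    intro x
    rw [mul_smul]
    have := h1 _ (h2 x)
    rw [D.d_apply, smul_add] at this
    -- g g x + g x = g x + x
    rw [add_comm (g • x) x] at this
    exact add_right_cancel this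
  refine ⟨h3, fun hg1 => ?_⟩
  obtain ⟨w', hw', hw0'⟩ := D.exists_ne hg1
  have c1 := (D.card_facts ht hw hw0).1
  have c2 := (D.card_facts h3 hw' hw0').1
  apply AddSubgroup.eq_of_le_of_card_ge
  · rintro _ ⟨x, rfl⟩; exact h2 x
  · rw [c1, c2]

/-- the stabilizer of `L_t` as a subgroup -/
def T (D : Setup I W G) (t : G) : Subgroup G where
  carrier := {g | (∀ x ∈ (D.d t).range, g • x ∈ (D.d t).range) ∧ (∀ x ∈ (D.d t).range, g⁻¹ • x ∈ (D.d t).range)}
  mul_mem' := fun {a b} ha hb => ⟨fun x hx => by rw [mul_smul]; exact ha.1 _ (hb.1 x hx),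
    fun x hx => by rw [mul_inv_rev, mul_smul]; exact hb.2 _ (ha.2 x hx)⟩
  one_mem' := ⟨fun x hx => by simpa using hx, fun x hx => by simpa using hx⟩
  inv_mem' := fun {a} ha => ⟨ha.2, by simpa using ha.1⟩

omit [Finite I] [Finite W] in
theorem range_conj (g t : G) (x : I) (hx : x ∈ (D.d t).range) : g • x ∈ (D.d (g * t * g⁻¹)).range := by
  obtain ⟨y, rfl⟩ := hx
  refine ⟨g • y, ?_⟩
  rw [D.d_apply, D.d_apply, smul_add, ← mul_smul, ← mul_smul]
  congr 2
  group

omit [Finite I] [Finite W] in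
theorem mem_T_of_conj {g t : G} (h : (D.d (g * t * g⁻¹)).range = (D.d t).range) : g ∈ D.T t := by
  refine ⟨fun x hx => ?_, fun x hx => ?_⟩
  · rw [← h]; exact D.range_conj g t x hx
  · rw [← h] at hx
    have := D.range_conj g⁻¹ _ x hx
    have e : g⁻¹ * (g * t * g⁻¹) * g⁻¹⁻¹ = t := by group
    rwa [e] at this

omit [Finite I] [Finite W] in
theorem mem_T_of_comm {g t : G} (h : g * t = t * g) : g ∈ D.T t := by
  apply D.mem_T_of_conj
  rw [h, mul_inv_cancel_right]

theorem solvable [Finite G]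
    (hodd : ∀ {H : Type u} [Group H] [Finite H], Odd (Nat.card H) → Group.IsSolvable H) :
    Group.IsSolvable G := by
  by_cases ho : Odd (Nat.card G)
  · exact hodd ho
  rw [Nat.not_odd_iff_even, even_iff_two_dvd] at ho
  obtain ⟨t, ht⟩ := exists_prime_orderOf_dvd_card' 2 ho
  have ht2 : t * t = 1 := by rw [← pow_two, ← ht, pow_orderOf_eq_one]
  have ht1 : t ≠ 1 := by rintro rfl; simp at ht
  have hTexp : ∀ g ∈ D.T t, g * g = 1 := fun g hg => (D.stab_facts ht2 ht1 hg.1).1
  have hT2 : IsPGroup 2 (D.T t) := by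
    intro g
    refine ⟨1, Subtype.ext ?_⟩
    have := hTexp g g.2
    rw [pow_one, pow_two]; exact this
  obtain ⟨P, hP⟩ := hT2.exists_le_sylow
  have htT : t ∈ D.T t := D.mem_T_of_comm rfl
  haveI : Nontrivial (P : Subgroup G) := ⟨⟨⟨t, hP htT⟩, 1, fun h => ht1 (congrArg Subtype.val h)⟩⟩
  haveI := P.isPGroup'.center_nontrivial
  obtain ⟨z, hz⟩ := exists_prime_orderOf_dvd_card' (G := Subgroup.center (P : Subgroup G)) 2 (by
    obtain ⟨n, hn⟩ := (IsPGroup.iff_card (p := 2)).mp
      (P.isPGroup'.to_subgroup (Subgroup.center (P : Subgroup G)))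
    rw [hn]
    have h1 : 1 < Nat.card (Subgroup.center (P : Subgroup G)) := Finite.one_lt_card
    rw [hn] at h1
    exact dvd_pow_self 2 (by rintro rfl; simp at h1))
  have hz2 : (z : (P : Subgroup G)) * z = 1 := by
    have : z ^ 2 = 1 := orderOf_dvd_iff_pow_eq_one.1 hz.dvd
    rw [pow_two] at this
    exact congrArg Subtype.val this
  have hz1 : (((z : (P : Subgroup G))) : G) ≠ 1 := by
    intro h
    have : z = 1 := Subtype.ext (Subtype.ext h)
    rw [this, orderOf_one] at hz
    omega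
  have hzc : ∀ p ∈ (P : Subgroup G), ((z : (P : Subgroup G)) : G) * p = p * z := by
    intro p hp
    have := Subgroup.mem_center_iff.1 z.2 ⟨p, hp⟩
    exact (congrArg Subtype.val this).symm
  have hzT : ((z : (P : Subgroup G)) : G) ∈ D.T t := D.mem_T_of_comm (hzc t (hP htT))
  have hzL := (D.stab_facts ht2 ht1 hzT.1).2 hz1
  have hPT : (P : Subgroup G) ≤ D.T t := by
    intro p hp
    have h1 : p ∈ D.T ((z : (P : Subgroup G)) : G) := D.mem_T_of_comm (hzc p hp).symm
    refine ⟨fun x hx => ?_, fun x hx => ?_⟩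
    · rw [← hzL] at hx ⊢; exact h1.1 x hx
    · rw [← hzL] at hx ⊢; exact h1.2 x hx
  have hPe : D.T t = (P : Subgroup G) := le_antisymm hP hPT
  apply solvable_of_sylow hodd P
  have hN : Subgroup.normalizer ((P : Subgroup G) : Set G) ≤ (P : Subgroup G) := by
    intro g hg
    rw [← hPe]
    apply D.mem_T_of_conj
    have h1 : g * t * g⁻¹ ∈ (P : Subgroup G) := (Subgroup.mem_normalizer_iff.1 hg t).1 (hP htT)
    rw [← hPe] at h1
    refine (D.stab_facts ht2 ht1 h1.1).2 ?_
    intro h
    apply ht1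
    have : t = g⁻¹ * (g * t * g⁻¹) * g := by group
    rw [this, h]; group
  refine hN.trans ?_
  intro x hx
  rw [Subgroup.mem_centralizer_iff]
  intro y hy
  have hy' : y ∈ D.T t := by rw [hPe]; exact hy
  have hx' : x ∈ D.T t := by rw [hPe]; exact hx
  have h1 := hTexp _ hy'
  have h2 := hTexp _ hx'
  have h3 := hTexp _ ((D.T t).mul_mem hy' hx')
  have e1 : y⁻¹ = y := inv_eq_of_mul_eq_one_right h1
  have e2 : x⁻¹ = x := inv_eq_of_mul_eq_one_right h2
  have e3 : (y * x)⁻¹ = y * x := inv_eq_of_mul_eq_one_right h3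
  rw [mul_inv_rev, e1, e2] at e3
  exact e3.symm

end Setup

end Cfsg.Agent.Lib.H30InvA
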