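import Mathlib
import Cfsg.Agent.Lib.H30InvA
import Cfsg.Agent.Lib.H50Out

/-! Automorphisms of a 2-group centralizing all involutions form a solvable group
(modulo the odd order theorem). (helper30) -/

set_option autoImplicit false

open Subgroup

universe u

namespace Cfsg.Agent.Lib.H30InvB

open H50Out

section perfect

theorem derived_eq_top {A : Type*} [Group A] (h : commutator A = ⊤) (n : ℕ) : derivedSeries A n = ⊤ := by
  induction n with
  | zero => rfl
  | succ n ih =>
    rw [derivedSeries_succ, ih]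
    exact h

theorem hom_trivial {A B : Type*} [Group A] [Group B] (h : commutator A = ⊤) (f : A →* B)
    (hf : Group.IsSolvable f.range) (a : A) : f a = 1 := by
  obtain ⟨n, hn⟩ := (Group.isSolvable_def f.range).1 hf
  have h1 := map_derivedSeries_le_derivedSeries (f.rangeRestrict) n
  rw [hn, derived_eq_top h] at h1
  have h2 := h1 (Subgroup.mem_map_of_mem f.rangeRestrict (Subgroup.mem_top a))
  rw [Subgroup.mem_bot] at h2
  exact congrArg Subtype.val h2

theorem exists_perfect {A : Type*} [Group A] [Finite A] (hA : ¬ Group.IsSolvable A) :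
    ∃ D : Subgroup A, D ≠ ⊥ ∧ commutator D = ⊤ := by
  have h1 : ∃ n, derivedSeries A (n+1) = derivedSeries A n := by
    by_contra hne
    push Not at hne
    have h2 : ∀ n, Nat.card (derivedSeries A n) + n ≤ Nat.card A := by
      intro n
      induction n with
      | zero => simp [derivedSeries_zero]
      | succ n ih =>
        have h3 : derivedSeries A (n+1) ≤ derivedSeries A n :=
          derivedSeries_antitone (G := A) (Nat.le_succ n)
        have h4 : Nat.card (derivedSeries A (n+1)) < Nat.card (derivedSeries A n) := by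
          by_contra h5
          push Not at h5
          exact hne n (Subgroup.eq_of_le_of_card_ge h3 h5)
        omega
    have := h2 (Nat.card A)
    have h3 : 0 < Nat.card (derivedSeries A (Nat.card A)) := Nat.card_pos
    omega
  obtain ⟨n, hn⟩ := h1
  refine ⟨derivedSeries A n, ?_, ?_⟩
  · intro h
    exact hA ((Group.isSolvable_def A).2 ⟨n, h⟩)
  · have h2 : (commutator (derivedSeries A n)).map (derivedSeries A n).subtype
        = ⁅derivedSeries A n, derivedSeries A n⁆ := Subgroup.map_subtype_commutator _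
    rw [← derivedSeries_succ, hn] at h2
    apply Subgroup.map_injective (derivedSeries A n).subtype_injective
    rw [h2, ← MonoidHom.range_eq_map, Subgroup.range_subtype]

end perfect

variable {S : Type u} [Group S]

/-- The fixed subgroup. -/
def Fx (A : Subgroup (MulAut S)) : Subgroup S where
  carrier := {s | ∀ φ ∈ A, φ s = s}
  mul_mem' := fun {a b} ha hb φ hφ => by rw [map_mul, ha φ hφ, hb φ hφ]
  one_mem' := fun φ _ => map_one φ
  inv_mem' := fun {a} ha φ hφ => by rw [map_inv, ha φ hφ]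

theorem mem_Fx {A : Subgroup (MulAut S)} {s : S} : s ∈ Fx A ↔ ∀ φ ∈ A, φ s = s := Iff.rfl

structure Core (A : Subgroup (MulAut S)) : Prop where
  p2 : IsPGroup 2 S
  perf : commutator A = ⊤
  triv : ∀ T : Subgroup S, T ≠ ⊤ → (∀ φ ∈ A, ∀ s ∈ T, φ s ∈ T) → T ≤ Fx A
  inv : ∀ s : S, s * s = 1 → s ∈ Fx A
  ne : A ≠ ⊥

namespace Core

variable {A : Subgroup (MulAut S)} (hc : Core A)

include hc

theorem Fx_ne : Fx A ≠ ⊤ := by
  intro h
  apply hc.ne
  rw [eq_bot_iff]
  intro φ hφ
  rw [Subgroup.mem_bot]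
  ext s
  have : s ∈ Fx A := h ▸ Subgroup.mem_top s
  exact this φ hφ

variable [Finite S]

theorem K_top : Subgroup.closure {x : S | ∃ φ ∈ A, ∃ s : S, x = φ s * s⁻¹} = ⊤ := by
  by_contra hne
  have hinv : ∀ φ ∈ A, ∀ s ∈ Subgroup.closure {x : S | ∃ φ ∈ A, ∃ s : S, x = φ s * s⁻¹},
      φ s ∈ Subgroup.closure {x : S | ∃ φ ∈ A, ∃ s : S, x = φ s * s⁻¹} := by
    intro ψ hψ s hs
    induction hs using Subgroup.closure_induction with
    | mem x hx =>
      obtain ⟨φ, hφ, t, rfl⟩ := hx
      apply Subgroup.subset_closure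
      refine ⟨ψ * φ * ψ⁻¹, A.mul_mem (A.mul_mem hψ hφ) (A.inv_mem hψ), ψ t, ?_⟩
      rw [MulAut.mul_apply, MulAut.mul_apply, MulAut.inv_apply_self, map_mul, map_inv]
    | one => rw [map_one]; exact Subgroup.one_mem _
    | mul x y _ _ h1 h2 => rw [map_mul]; exact Subgroup.mul_mem _ h1 h2
    | inv x _ h1 => rw [map_inv]; exact Subgroup.inv_mem _ h1
  have h1 := hc.triv _ hne hinv
  apply hc.Fx_ne
  rw [eq_top_iff]
  intro s _
  rw [mem_Fx]
  have h2 : ∀ ψ ∈ A, ψ s * s⁻¹ ∈ Fx A := fun ψ hψ => h1 (Subgroup.subset_closure ⟨ψ, hψ, s, rfl⟩)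
  have h2' : ∀ ψ ∈ A, s⁻¹ * ψ s ∈ Fx A := by
    intro ψ hψ
    have := h1 (Subgroup.subset_closure ⟨ψ, hψ, s⁻¹, rfl⟩)
    rw [map_inv, inv_inv] at this
    have h3 := (Fx A).inv_mem this
    rwa [mul_inv_rev, inv_inv] at h3
  let f : A →* S :=
    { toFun := fun φ => s⁻¹ * (φ : MulAut S) s
      map_one' := by simp
      map_mul' := by
        intro φ ψ
        have e : ((φ * ψ : A) : MulAut S) s = (φ : MulAut S) (s * (s⁻¹ * (ψ : MulAut S) s)) := by
          rw [mul_inv_cancel_left]; rfl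
        change s⁻¹ * ((φ * ψ : A) : MulAut S) s = _
        rw [e, map_mul, h2' ψ ψ.2 φ φ.2, mul_assoc] }
  intro φ hφ
  haveI := hc.p2.isNilpotent
  have h3 : Group.IsSolvable f.range := inferInstance
  have h4 := hom_trivial hc.perf f h3 ⟨φ, hφ⟩
  change s⁻¹ * φ s = 1 at h4
  rw [inv_mul_eq_one] at h4
  exact h4.symm

theorem nontriv : Nontrivial S := by
  by_contra h
  rw [not_nontrivial_iff_subsingleton] at h
  apply hc.Fx_ne
  rw [eq_top_iff]
  intro s _ φ _
  exact Subsingleton.elim _ _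

theorem exists_index_two : ∃ M : Subgroup S, M.index = 2 := by
  haveI := hc.nontriv
  obtain ⟨n, hn⟩ := (IsPGroup.iff_card (p := 2)).mp hc.p2
  have h1 : 1 < Nat.card S := Finite.one_lt_card
  have hn0 : n ≠ 0 := by rintro rfl; rw [hn] at h1; simp at h1
  obtain ⟨m, rfl⟩ := Nat.exists_eq_succ_of_ne_zero hn0
  obtain ⟨K, hK⟩ := Sylow.exists_subgroup_card_pow_prime (G := S) 2 (n := m) (by
    rw [hn]; exact pow_dvd_pow 2 (Nat.le_succ m))
  refine ⟨K, ?_⟩
  have h2 := K.card_mul_index
  rw [hK, hn, pow_succ] at h2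
  exact Nat.eq_of_mul_eq_mul_left (by positivity) h2

theorem sq_mem (s : S) : s * s ∈ Fx A := by
  obtain ⟨M, hM⟩ := hc.exists_index_two
  have hle : Subgroup.closure (Set.range (fun s : S => s * s)) ≤ M := by
    rw [Subgroup.closure_le]
    rintro _ ⟨t, rfl⟩
    exact Subgroup.mul_self_mem_of_index_two hM t
  have hne : Subgroup.closure (Set.range (fun s : S => s * s)) ≠ ⊤ := by
    intro h
    rw [h, top_le_iff] at hle
    rw [hle, Subgroup.index_top] at hM
    omega
  refine hc.triv _ hne ?_ (Subgroup.subset_closure ⟨s, rfl⟩)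
  intro ψ hψ t ht
  induction ht using Subgroup.closure_induction with
  | mem x hx =>
    obtain ⟨t, rfl⟩ := hx
    apply Subgroup.subset_closure
    exact ⟨ψ t, by simp⟩
  | one => rw [map_one]; exact Subgroup.one_mem _
  | mul x y _ _ h1 h2 => rw [map_mul]; exact Subgroup.mul_mem _ h1 h2
  | inv x _ h1 => rw [map_inv]; exact Subgroup.inv_mem _ h1

/-- commutator function -/
def cm (s t : S) : S := s * t * s⁻¹ * t⁻¹

omit hc [Finite S] in
theorem cm_def (s t : S) : cm s t = s * t * s⁻¹ * t⁻¹ := rfl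

omit hc [Finite S] in
theorem map_cm (φ : MulAut S) (s t : S) : φ (cm s t) = cm (φ s) (φ t) := by
  rw [cm_def, cm_def, map_mul, map_mul, map_mul, map_inv, map_inv]

theorem cm_mem (s t : S) : cm s t ∈ Fx A := by
  have e : cm s t = (s * s) * ((s⁻¹ * t) * (s⁻¹ * t)) * (t * t)⁻¹ := by
    rw [cm_def]; group
  rw [e]
  exact (Fx A).mul_mem ((Fx A).mul_mem (hc.sq_mem _) (hc.sq_mem _)) ((Fx A).inv_mem (hc.sq_mem _))

theorem central {c : S} (h : c ∈ Fx A) (s : S) : c * s = s * c := by
  have h1 : (⊤ : Subgroup S) ≤ Subgroup.centralizer {c} := by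
    rw [← hc.K_top, Subgroup.closure_le]
    rintro _ ⟨φ, hφ, t, rfl⟩
    rw [SetLike.mem_coe, Subgroup.mem_centralizer_singleton_iff]
    have h2 := hc.cm_mem t c φ hφ
    rw [map_cm, h φ hφ, cm_def, cm_def] at h2
    have h3 := mul_right_cancel h2
    -- φ t * c * (φ t)⁻¹ = t * c * t⁻¹
    -- want c commutes with φ t * t⁻¹
    have h2' := hc.cm_mem t⁻¹ c φ hφ
    rw [map_cm, h φ hφ, cm_def, cm_def] at h2'
    have h3' := mul_right_cancel h2'
    rw [map_inv, inv_inv] at h3'
    -- (φ t)⁻¹ * c * φ t = t⁻¹ * c * t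
    have h6 : c * φ t = φ t * (t⁻¹ * c * t) := by
      rw [inv_inv] at h3'
      rw [← h3']; group
    symm
    calc c * (φ t * t⁻¹) = (c * φ t) * t⁻¹ := by group
      _ = φ t * (t⁻¹ * c * t) * t⁻¹ := by rw [h6]
      _ = φ t * t⁻¹ * c := by group
  have h2 := h1 (Subgroup.mem_top s)
  rw [Subgroup.mem_centralizer_singleton_iff] at h2
  first | exact h2 | exact h2.symm

theorem cm_fix {φ : MulAut S} (hφ : φ ∈ A) (s t : S) : cm (φ s) (φ t) = cm s t := by
  rw [← map_cm]; exact hc.cm_mem s t φ hφ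

theorem cm_mul_left (s s' t : S) : cm (s * s') t = cm s t * cm s' t := by
  have h1 : s * cm s' t = cm s' t * s := (hc.central (hc.cm_mem s' t) s).symm
  calc cm (s * s') t = (s * cm s' t) * t * s⁻¹ * t⁻¹ := by simp only [cm_def]; group
    _ = cm s' t * (s * t * s⁻¹ * t⁻¹) := by rw [h1]; group
    _ = cm s t * cm s' t := hc.central (hc.cm_mem s' t) _

theorem cm_mul_right (s t t' : S) : cm s (t * t') = cm s t * cm s t' := by
  have h1 : t * cm s t' = cm s t' * t := (hc.central (hc.cm_mem s t') t).symm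
  calc cm s (t * t') = s * t * s⁻¹ * (cm s t' * t⁻¹) := by simp only [cm_def]; group
    _ = s * t * s⁻¹ * (t⁻¹ * cm s t') := by rw [hc.central (hc.cm_mem s t')]
    _ = cm s t * cm s t' := by rw [cm_def s t]; group

omit hc [Finite S] in
theorem cm_swap (s t : S) : cm t s = (cm s t)⁻¹ := by
  rw [cm_def, cm_def]; group

theorem cm_central_right {c : S} (h : c ∈ Fx A) (s : S) : cm s c = 1 := by
  rw [cm_def, mul_assoc s c, hc.central h]; group

theorem cm_central_left {c : S} (h : c ∈ Fx A) (s : S) : cm c s = 1 := by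
  rw [cm_def, hc.central h]; group

theorem cm_sq (s t : S) : cm s t * cm s t = 1 := by
  rw [← hc.cm_mul_left, hc.cm_central_left (hc.sq_mem s)]

theorem cm_symm (s t : S) : cm t s = cm s t := by
  rw [cm_swap, inv_eq_of_mul_eq_one_right (hc.cm_sq s t)]

theorem sq_mul (s t : S) : (s * t) * (s * t) = cm s t * ((s * s) * (t * t)) := by
  rw [← hc.cm_symm s t]
  have h1 : s * cm t s = cm t s * s := (hc.central (hc.cm_mem t s) s).symm
  calc (s * t) * (s * t) = (s * cm t s) * s * (t * t) := by simp only [cm_def]; group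
    _ = cm t s * ((s * s) * (t * t)) := by rw [h1]; group

theorem aniso {s c : S} (h : c ∈ Fx A) (hs : s * s = c * c) : s ∈ Fx A := by
  have h1 : (s * c⁻¹) * (s * c⁻¹) = 1 := by
    have h2 := hc.central ((Fx A).inv_mem h) s
    calc (s * c⁻¹) * (s * c⁻¹) = s * (c⁻¹ * s) * c⁻¹ := by group
      _ = (s * s) * c⁻¹ * c⁻¹ := by rw [h2]; group
      _ = 1 := by rw [hs]; group
  have h2 := hc.inv _ h1
  have := (Fx A).mul_mem h2 h
  rwa [inv_mul_cancel_right] at this

/-- the subgroup `[S,w] C²` -/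
def R (hc : Core A) (w : S) : Subgroup S where
  carrier := {r | ∃ t, ∃ c ∈ Fx A, r = cm t w * (c * c)}
  mul_mem' := by
    rintro _ _ ⟨t, c, h, rfl⟩ ⟨t', c', h', rfl⟩
    refine ⟨t * t', c * c', (Fx A).mul_mem h h', ?_⟩
    rw [hc.cm_mul_left]
    have e1 := hc.central ((Fx A).mul_mem h h) (cm t' w)
    have e2 := hc.central h c'
    calc cm t w * (c * c) * (cm t' w * (c' * c')) = cm t w * ((c * c) * cm t' w) * (c' * c') := by group
      _ = cm t w * cm t' w * (c * (c * c') * c') := by rw [e1]; group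
      _ = cm t w * cm t' w * (c * (c' * c) * c') := by rw [e2]
      _ = cm t w * cm t' w * (c * c' * (c * c')) := by group
  one_mem' := ⟨1, 1, (Fx A).one_mem, by rw [cm_def]; group⟩
  inv_mem' := by
    rintro _ ⟨t, c, h, rfl⟩
    refine ⟨t, c⁻¹, (Fx A).inv_mem h, ?_⟩
    have e1 : (cm t w)⁻¹ = cm t w := inv_eq_of_mul_eq_one_right (hc.cm_sq t w)
    rw [mul_inv_rev, e1]
    have e2 := hc.central ((Fx A).inv_mem ((Fx A).mul_mem h h)) (cm t w)
    rw [e2, mul_inv_rev]

theorem sq_mem_R {w : S} (hw : w ∉ Fx A) (s : S) : s * s ∈ hc.R w := by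
  let Rad : Subgroup S :=
    { carrier := {x | ∀ s, cm s x ∈ hc.R w}
      mul_mem' := fun {a b} ha hb s => by
        rw [hc.cm_mul_right]; exact (hc.R w).mul_mem (ha s) (hb s)
      one_mem' := fun s => by
        have : cm s 1 = 1 := by rw [cm_def]; group
        rw [this]; exact (hc.R w).one_mem
      inv_mem' := fun {a} ha s => by
        have h1 : cm s a * cm s a⁻¹ = 1 := by
          rw [← hc.cm_mul_right, mul_inv_cancel]; rw [cm_def]; group
        rw [← inv_eq_of_mul_eq_one_right h1]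
        exact (hc.R w).inv_mem (ha s) }
  have hRad : Rad = ⊤ := by
    by_contra hne
    apply hw
    refine hc.triv Rad hne ?_ ?_
    · intro φ hφ x hx s
      have e : cm s (φ x) = cm (φ⁻¹ s) x := by
        conv_rhs => rw [← hc.cm_fix hφ]
        rw [MulAut.apply_inv_self]
      rw [e]; exact hx _
    · intro s
      exact ⟨s, 1, (Fx A).one_mem, by simp⟩
  have hR : ∀ s t, cm s t ∈ hc.R w := fun s t => by
    have : t ∈ Rad := hRad ▸ Subgroup.mem_top t
    exact this s
  let Kr : Subgroup S :=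
    { carrier := {s | s * s ∈ hc.R w}
      mul_mem' := fun {a b} ha hb => by
        change a * b * (a * b) ∈ hc.R w
        rw [hc.sq_mul]; exact (hc.R w).mul_mem (hR _ _) ((hc.R w).mul_mem ha hb)
      one_mem' := by
        change (1:S) * 1 ∈ hc.R w
        rw [one_mul]; exact (hc.R w).one_mem
      inv_mem' := fun {a} ha => by
        change a⁻¹ * a⁻¹ ∈ hc.R w
        rw [← mul_inv_rev]; exact (hc.R w).inv_mem ha }
  have h1 : (⊤ : Subgroup S) ≤ Kr := by
    rw [← hc.K_top, Subgroup.closure_le]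
    rintro _ ⟨φ, hφ, t, rfl⟩
    change φ t * t⁻¹ * (φ t * t⁻¹) ∈ hc.R w
    rw [hc.sq_mul]
    apply (hc.R w).mul_mem (hR _ _)
    have : φ t * φ t = t * t := by
      rw [← map_mul]; exact hc.sq_mem t φ hφ
    rw [this]
    have : t * t * (t⁻¹ * t⁻¹) = 1 := by group
    rw [this]; exact (hc.R w).one_mem
  exact h1 (Subgroup.mem_top s)

theorem surj {w : S} (hw : w ∉ Fx A) (s : S) : ∃ t, ∃ c ∈ Fx A, cm t w = (s * s) * (c * c) := by
  obtain ⟨t, c, h, e⟩ := hc.sq_mem_R hw s
  refine ⟨t, c⁻¹, (Fx A).inv_mem h, ?_⟩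
  rw [e]; group

end Core


end Cfsg.Agent.Lib.H30InvB
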