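import Mathlib
import Cfsg.Agent.Lib.H30InvA
import Cfsg.Agent.Lib.H30InvB

/-! Automorphisms of a 2-group centralizing all involutions form a solvable group
(modulo the odd order theorem). (helper30) -/

set_option autoImplicit false

open Subgroup

universe u

namespace Cfsg.Agent.Lib.H30InvC

open H50Out H30InvB

section rep

variable {S : Type u} [Group S]

/-- action of `A` on the quotient -/
def theta (A : Subgroup (MulAut S)) (C : Subgroup S) [C.Normal]
    (hAC : ∀ φ ∈ A, C.map (MulEquiv.toMonoidHom φ) = C) : A →* MulAut (S ⧸ C) where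
  toFun φ := QuotientGroup.congr C C (φ : MulAut S) (hAC φ φ.2)
  map_one' := by ext ⟨x⟩; rfl
  map_mul' φ ψ := by ext ⟨x⟩; rfl

theorem theta_mk (A : Subgroup (MulAut S)) (C : Subgroup S) [C.Normal]
    (hAC : ∀ φ ∈ A, C.map (MulEquiv.toMonoidHom φ) = C) (φ : A) (s : S) :
    theta A C hAC φ (s : S ⧸ C) = (((φ : MulAut S) s : S) : S ⧸ C) := rfl

theorem solvable_of_rep [Finite S]
    (hodd : ∀ {H : Type u} [Group H] [Finite H], Odd (Nat.card H) → Group.IsSolvable H)
    (A : Subgroup (MulAut S)) (C : Subgroup S) [C.Normal]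
    (hAC : ∀ φ ∈ A, C.map (MulEquiv.toMonoidHom φ) = C) (W : Type u) [AddCommGroup W] [Finite W]
    (q : S → W) (b : S → S → W)
    (hq : ∀ s t, q (s*t) = q s + q t + b s t)
    (hb1 : ∀ s s' t, b (s*s') t = b s t + b s' t)
    (hb2 : ∀ s t t', b s (t * t') = b s t + b s t')
    (hqC : ∀ c ∈ C, q c = 0) (hbC : ∀ c ∈ C, ∀ s, b s c = 0)
    (aniso : ∀ s, q s = 0 → s ∈ C)
    (surj : ∀ w, w ∉ C → ∀ s, ∃ t, b t w = q s) (inv : ∀ φ ∈ A, ∀ s, q (φ s) = q s)
    (hsq : ∀ s : S, s * s ∈ C) (hW : ∀ x : W, x + x = 0) :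
    Group.IsSolvable (theta A C hAC).range := by
  have hex : ∀ x : S ⧸ C, x * x = 1 := by
    rintro ⟨s⟩
    exact (QuotientGroup.eq_one_iff (s * s)).2 (hsq s)
  have hcomm : ∀ x y : S ⧸ C, x * y = y * x := by
    intro x y
    have e1 : x⁻¹ = x := inv_eq_of_mul_eq_one_right (hex x)
    have e2 : y⁻¹ = y := inv_eq_of_mul_eq_one_right (hex y)
    have e3 : (x * y)⁻¹ = x * y := inv_eq_of_mul_eq_one_right (hex _)
    rw [mul_inv_rev, e1, e2] at e3
    exact e3.symm
  letI : CommGroup (S ⧸ C) := { (inferInstance : Group (S ⧸ C)) with mul_comm := hcomm }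
  let π : S → Additive (S ⧸ C) := fun s => Additive.ofMul (s : S ⧸ C)
  have hπ : Function.Surjective π := fun x => by
    obtain ⟨s, hs⟩ := QuotientGroup.mk_surjective (Additive.toMul x)
    exact ⟨s, congrArg Additive.ofMul hs⟩
  have hπm : ∀ s t, π (s * t) = π s + π t := fun s t => rfl
  have hπ0 : ∀ s, π s = 0 ↔ s ∈ C := fun s => QuotientGroup.eq_one_iff s
  have hπe : ∀ s t, π s = π t → ∃ c ∈ C, t = s * c := fun s t h => by
    have h1 : (s : S ⧸ C) = (t : S ⧸ C) := h
    rw [QuotientGroup.eq] at h1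
    exact ⟨_, h1, by group⟩
  have hqe : ∀ s t, π s = π t → q s = q t := by
    intro s t h
    obtain ⟨c, hc, rfl⟩ := hπe s t h
    rw [hq, hqC c hc, hbC c hc, add_zero, add_zero]
  let g0 : Additive (S ⧸ C) → S := fun x => (hπ x).choose
  have hg0 : ∀ x, π (g0 x) = x := fun x => (hπ x).choose_spec
  let Q : Additive (S ⧸ C) → W := fun x => q (g0 x)
  have hQπ : ∀ s, Q (π s) = q s := fun s => hqe _ _ (hg0 _)
  have hbq : ∀ s t, b s t = Q (π s + π t) - Q (π s) - Q (π t) := by
    intro s t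
    rw [← hπm, hQπ, hQπ, hQπ, hq]; abel
  have h0 : Q 0 = 0 := by
    have : (0 : Additive (S ⧸ C)) = π 1 := rfl
    rw [this, hQπ]; exact hqC 1 C.one_mem
  let B : Additive (S ⧸ C) →+ Additive (S ⧸ C) →+ W :=
    AddMonoidHom.mk' (fun x => AddMonoidHom.mk' (fun y => Q (x + y) - Q x - Q y) (by
      intro y y'
      obtain ⟨s, rfl⟩ := hπ x
      obtain ⟨t, rfl⟩ := hπ y
      obtain ⟨t', rfl⟩ := hπ y'
      rw [← hπm t t', ← hbq, ← hbq, ← hbq, hb2])) (by
      intro x x'
      refine AddMonoidHom.ext fun y => ?_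
      obtain ⟨s, rfl⟩ := hπ x
      obtain ⟨s', rfl⟩ := hπ x'
      obtain ⟨t, rfl⟩ := hπ y
      change Q (π s + π s' + π t) - Q (π s + π s') - Q (π t) = (Q (π s + π t) - Q (π s) - Q (π t)) +
        (Q (π s' + π t) - Q (π s') - Q (π t))
      rw [← hπm s s', ← hbq, ← hbq, ← hbq, hb1])
  have hB : ∀ s t, B (π s) (π t) = b s t := fun s t => (hbq s t).symm
  letI act : DistribMulAction (theta A C hAC).range (Additive (S ⧸ C)) :=
    { smul := fun g x => Additive.ofMul ((g : MulAut (S ⧸ C)) (Additive.toMul x))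
      one_smul := fun x => rfl
      mul_smul := fun g h x => rfl
      smul_zero := fun g => congrArg Additive.ofMul (map_one (g : MulAut (S ⧸ C)))
      smul_add := fun g x y => congrArg Additive.ofMul (map_mul (g : MulAut (S ⧸ C)) _ _) }
  let D : H30InvA.Setup (Additive (S ⧸ C)) W (theta A C hAC).range :=
    { hI := fun x => hex _
      hW := hW
      Q := Q
      B := B
      hQ := fun x y => by
        change Q (x + y) = Q x + Q y + (Q (x + y) - Q x - Q y)
        abel
      aniso := fun x hx => by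
        obtain ⟨s, rfl⟩ := hπ x
        rw [hQπ] at hx
        exact (hπ0 s).2 (aniso s hx)
      surj := fun w hw x => by
        obtain ⟨w, rfl⟩ := hπ w
        obtain ⟨s, rfl⟩ := hπ x
        obtain ⟨t, ht⟩ := surj w (fun h => hw ((hπ0 w).2 h)) s
        exact ⟨π t, by rw [hB, ht, hQπ]⟩
      inv := by
        rintro ⟨_, φ, rfl⟩ x
        obtain ⟨s, rfl⟩ := hπ x
        have : (⟨theta A C hAC φ, ⟨φ, rfl⟩⟩ : (theta A C hAC).range) • π s = π ((φ : MulAut S) s) := rfl
        rw [this, hQπ, hQπ, inv φ φ.2]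
      faith := by
        intro g hg
        apply Subtype.ext
        ext x
        have := congrArg Additive.toMul (hg (Additive.ofMul x))
        exact this }
  exact D.solvable hodd

end rep

section

variable {S : Type u} [Group S] [Finite S] {A : Subgroup (MulAut S)}

theorem Fx_normal (hc : Core A) : (Fx A).Normal := ⟨fun c h g => by
  rw [← hc.central h g, mul_inv_cancel_right]; exact h⟩

theorem Fx_map (φ : MulAut S) (hφ : φ ∈ A) : (Fx A).map (MulEquiv.toMonoidHom φ) = Fx A := by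
  ext s
  constructor
  · rintro ⟨t, ht, rfl⟩
    have : φ t = t := ht φ hφ
    change φ t ∈ Fx A
    rw [this]; exact ht
  · intro hs
    exact ⟨s, hs, hs φ hφ⟩

theorem core_solvable
    (hodd : ∀ {H : Type u} [Group H] [Finite H], Odd (Nat.card H) → Group.IsSolvable H)
    (hc : Core A) : Group.IsSolvable A := by
  haveI := Fx_normal hc
  letI : CommGroup (Fx A) := { (inferInstance : Group (Fx A)) with
    mul_comm := fun a b => Subtype.ext (hc.central a.2 b) }
  let N : Subgroup (Fx A) := (powMonoidHom 2 : Fx A →* Fx A).range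
  let ε : Fx A → Additive (Fx A ⧸ N) := fun c => Additive.ofMul (c : Fx A ⧸ N)
  have hε : ∀ a b, ε (a * b) = ε a + ε b := fun a b => rfl
  have hε0 : ∀ a, ε a = 0 ↔ ∃ c : Fx A, a = c * c := by
    intro a
    have h1 : ε a = 0 ↔ a ∈ N := QuotientGroup.eq_one_iff a
    rw [h1]
    constructor
    · rintro ⟨c, rfl⟩
      exact ⟨c, by rw [powMonoidHom_apply, pow_two]⟩
    · rintro ⟨c, rfl⟩
      exact ⟨c, by rw [powMonoidHom_apply, pow_two]⟩
  have hεs : Function.Surjective ε := fun x => by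
    obtain ⟨s, hs⟩ := QuotientGroup.mk_surjective (Additive.toMul x)
    exact ⟨s, congrArg Additive.ofMul hs⟩
  have h1 : Group.IsSolvable (theta A (Fx A) Fx_map).range := by
    refine solvable_of_rep hodd A (Fx A) Fx_map (Additive (Fx A ⧸ N))
      (fun s => ε ⟨s * s, hc.sq_mem s⟩) (fun s t => ε ⟨Core.cm s t, hc.cm_mem s t⟩)
      ?_ ?_ ?_ ?_ ?_ ?_ ?_ ?_ hc.sq_mem ?_
    · intro s t
      rw [add_comm, ← hε, ← hε]
      exact congrArg ε (Subtype.ext (hc.sq_mul s t))
    · intro s s' t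
      rw [← hε]
      exact congrArg ε (Subtype.ext (hc.cm_mul_left s s' t))
    · intro s t t'
      rw [← hε]
      exact congrArg ε (Subtype.ext (hc.cm_mul_right s t t'))
    · intro c h
      rw [hε0]
      exact ⟨⟨c, h⟩, rfl⟩
    · intro c h s
      rw [hε0]
      exact ⟨1, Subtype.ext (by rw [mul_one]; exact hc.cm_central_right h s)⟩
    · intro s hs
      rw [hε0] at hs
      obtain ⟨c, h⟩ := hs
      exact hc.aniso c.2 (congrArg Subtype.val h)
    · intro w hw s
      obtain ⟨t, c, h, e⟩ := hc.surj hw s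
      refine ⟨t, ?_⟩
      have e' : (⟨Core.cm t w, hc.cm_mem t w⟩ : Fx A) = ⟨s * s, hc.sq_mem s⟩ * (⟨c, h⟩ * ⟨c, h⟩) :=
        Subtype.ext e
      have e2 : ε (⟨c, h⟩ * ⟨c, h⟩) = 0 := (hε0 _).2 ⟨_, rfl⟩
      rw [e', hε, e2, add_zero]
    · intro φ hφ s
      apply congrArg ε
      apply Subtype.ext
      change φ s * φ s = s * s
      rw [← map_mul]
      exact hc.sq_mem s φ hφ
    · intro x
      obtain ⟨c, rfl⟩ := hεs x
      rw [← hε, hε0]
      exact ⟨c, rfl⟩
  refine isSolvable_of_ker (theta A (Fx A) Fx_map) ?_ h1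
  have hk : ∀ φ ∈ (theta A (Fx A) Fx_map).ker, ∀ s, (φ : MulAut S) s * s⁻¹ ∈ Fx A := by
    intro φ hφ s
    rw [MonoidHom.mem_ker] at hφ
    have h2 := DFunLike.congr_fun hφ (s : S ⧸ Fx A)
    rw [theta_mk, MulAut.one_apply] at h2
    have h3 := QuotientGroup.eq.1 h2.symm
    have h4 := hc.central ((Fx A).inv_mem h3) s
    -- (s⁻¹ * φ s) ∈ Fx
    have h5 : (φ : MulAut S) s * s⁻¹ = s⁻¹ * (φ : MulAut S) s := by
      have h6 := hc.central h3 s
      calc (φ : MulAut S) s * s⁻¹ = (s * (s⁻¹ * (φ : MulAut S) s)) * s⁻¹ := by group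
        _ = s⁻¹ * (φ : MulAut S) s := by rw [← h6]; group
    rw [h5]; exact h3
  have hcomm : ∀ φ ∈ (theta A (Fx A) Fx_map).ker, ∀ ψ ∈ (theta A (Fx A) Fx_map).ker, φ * ψ = ψ * φ := by
    have key : ∀ φ ∈ (theta A (Fx A) Fx_map).ker, ∀ ψ ∈ (theta A (Fx A) Fx_map).ker, ∀ s,
        (φ : MulAut S) ((ψ : MulAut S) s) = ((ψ : MulAut S) s * s⁻¹) * ((φ : MulAut S) s * s⁻¹) * s := by
      intro φ hφ ψ hψ s
      have e : (ψ : MulAut S) s = ((ψ : MulAut S) s * s⁻¹) * s := by group
      have e2 := hk ψ hψ s φ φ.2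
      calc (φ : MulAut S) ((ψ : MulAut S) s) = (φ : MulAut S) (((ψ : MulAut S) s * s⁻¹) * s) := by rw [← e]
        _ = ((ψ : MulAut S) s * s⁻¹) * (φ : MulAut S) s := by rw [map_mul, e2]
        _ = _ := by group
    intro φ hφ ψ hψ
    apply Subtype.ext
    ext s
    change (φ : MulAut S) ((ψ : MulAut S) s) = (ψ : MulAut S) ((φ : MulAut S) s)
    rw [key φ hφ ψ hψ, key ψ hψ φ hφ, hc.central (hk ψ hψ s)]
  haveI : IsMulCommutative (theta A (Fx A) Fx_map).ker :=
    ⟨⟨fun a b => Subtype.ext (hcomm a a.2 b b.2)⟩⟩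
  letI : CommGroup (theta A (Fx A) Fx_map).ker := { (inferInstance : Group _) with
    mul_comm := fun a b => Subtype.ext (hcomm a a.2 b b.2) }
  exact inferInstance

end

/-- **Theorem L** -/
theorem main
    (hodd : ∀ {H : Type u} [Group H] [Finite H], Odd (Nat.card H) → Group.IsSolvable H)
    (n : ℕ) : ∀ (S : Type u) [Group S] [Finite S], Nat.card S = n → IsPGroup 2 S →
      ∀ A : Subgroup (MulAut S), (∀ φ ∈ A, ∀ s, s * s = 1 → φ s = s) → Group.IsSolvable A := by
  induction n using Nat.strong_induction_on with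
  | _ n ih =>
  intro S _ _ hn h2 A hA
  by_contra hns
  haveI : Finite (MulAut S) := inferInstance
  obtain ⟨D0, hD0, hperf⟩ := exists_perfect hns
  let D : Subgroup (MulAut S) := D0.map A.subtype
  have hDA : D ≤ A := by
    rintro _ ⟨x, _, rfl⟩; exact x.2
  have e : D0 ≃* D := D0.equivMapOfInjective A.subtype A.subtype_injective
  have hperfD : commutator D = ⊤ := by
    have h1 : (commutator D0).map e.toMonoidHom = commutator D := by
      rw [commutator_def, commutator_def, Subgroup.map_commutator, ← MonoidHom.range_eq_map]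
      have : e.toMonoidHom.range = ⊤ := MonoidHom.range_eq_top.2 e.surjective
      rw [this]
    rw [← h1, hperf, ← MonoidHom.range_eq_map]
    exact MonoidHom.range_eq_top.2 e.surjective
  have hDne : D ≠ ⊥ := by
    intro h
    apply hD0
    exact (Subgroup.map_eq_bot_iff_of_injective _ A.subtype_injective).1 h
  have hcore : Core D := by
    refine ⟨h2, hperfD, ?_, ?_, hDne⟩
    · intro T hT hinv
      have hst : ∀ φ ∈ D, φ ∈ stab T := by
        intro φ hφ s
        constructor
        · intro hs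
          have := hinv φ⁻¹ (D.inv_mem hφ) _ hs
          rwa [MulAut.inv_apply_self] at this
        · exact hinv φ hφ s
      let f : D →* MulAut T := (restr T).comp (Subgroup.inclusion hst)
      have hcard : Nat.card T < n := by
        rw [← hn]
        refine lt_of_le_of_ne (Nat.card_le_card_of_injective _ T.subtype_injective) ?_
        intro h
        exact hT (Subgroup.eq_top_of_card_eq T h)
      have hsol : Group.IsSolvable f.range := by
        refine ih _ hcard T rfl (h2.to_subgroup T) f.range ?_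
        rintro _ ⟨φ, rfl⟩ s hs
        apply Subtype.ext
        exact hA φ (hDA φ.2) s (congrArg Subtype.val hs)
      intro s hs φ hφ
      have h4 := hom_trivial hperfD f hsol ⟨φ, hφ⟩
      have h5 := DFunLike.congr_fun h4 ⟨s, hs⟩
      exact congrArg Subtype.val h5
    · intro s hs φ hφ
      exact hA φ (hDA hφ) s hs
  have hsolD := core_solvable hodd hcore
  have h3 := hom_trivial hperfD (MonoidHom.id D) (by
    haveI := hsolD
    exact inferInstance)
  apply hDne
  rw [eq_bot_iff]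
  intro φ hφ
  rw [Subgroup.mem_bot]
  exact congrArg Subtype.val (h3 ⟨φ, hφ⟩)

end Cfsg.Agent.Lib.H30InvC
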