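import Cfsg.Agent.Lib.ZNZero
import Cfsg.Agent.Lib.H58ElemAb

/-!
Kurzweil–Stellmacher 12.1: subgroups subnormal in `⟨K, J(T)⟩` which are components of a conjugate.
-/

set_option autoImplicit false
set_option linter.unusedSectionVars false

namespace Cfsg.Agent.Lib.ZN

open Subgroup commutatorElement Cfsg.Agent.Lib.LocBase Cfsg.Agent.Lib.TvStruct
open scoped Pointwise

universe u

variable {G : Type u} [Group G] [Finite G]

/-- 3-groups in `GL_e(2)`, `e ≤ 4`. -/
theorem card_dvd_nine_of_GL {e : ℕ} (he : e ≤ 4) {R : Subgroup (GL (Fin e) (ZMod 2))} (hR : IsPGroup 3 R) :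
    Nat.card R ∣ 9 := by
  have : Fact (Nat.Prime 3) := ⟨Nat.prime_three⟩
  obtain ⟨k, hk⟩ := IsPGroup.iff_card.mp hR
  have h1 : Nat.card R ∣ Nat.card (GL (Fin e) (ZMod 2)) := Subgroup.card_subgroup_dvd_card R
  rw [Matrix.card_GL_field, ZMod.card] at h1
  have h2 : Nat.card R ∣ 20160 := by
    refine h1.trans ?_
    interval_cases e <;> decide
  rw [hk] at h2 ⊢
  have h3 : k ≤ 2 := by
    by_contra hlt
    push Not at hlt
    have h4 : 3 ^ 3 ∣ 20160 := (pow_dvd_pow 3 hlt).trans h2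
    omega
  exact (pow_dvd_pow 3 h3).trans (by norm_num)

theorem comm_of_card_dvd_nine {H : Type*} [Group H] (hR : Nat.card H ∣ 9) (a b : H) : a * b = b * a := by
  have hf : Finite H := Nat.finite_of_card_ne_zero (by intro h0; rw [h0] at hR; omega)
  have h9 : (9 : ℕ) = 3 ^ 2 := by norm_num
  rw [h9] at hR
  obtain ⟨k, hk, hk2⟩ := (Nat.dvd_prime_pow Nat.prime_three).mp hR
  have : Fact (Nat.Prime 3) := ⟨Nat.prime_three⟩
  interval_cases k
  · have h1 : Subsingleton H := (Nat.card_eq_one_iff_unique.mp (by simpa using hk2)).1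
    exact Subsingleton.elim _ _
  · have h1 : IsCyclic H := isCyclic_of_prime_card (p := 3) (by simpa using hk2)
    exact h1.commGroup.mul_comm a b
  · exact (IsPGroup.isMulCommutative_of_card_eq_prime_sq (p := 3) hk2).is_comm.comm a b

/-- `K` acts on `V` as a group of order 3 with commutator `W` of order 4. -/
structure TriAct (V K W : Subgroup G) : Prop where
  norm : K ≤ normalizer (V : Set G)
  WV : W ≤ V
  card : Nat.card W = 4
  comm : ⁅V, K⁆ ≤ W
  idem : ⁅W, K⁆ = W
  fpf : W ⊓ centralizer (K : Set G) = ⊥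
  core : ∃ K₀ ≤ K, K₀ ≤ centralizer (V : Set G) ∧ K ≤ normalizer (K₀ : Set G) ∧ K₀.relIndex K = 3

theorem TriAct.conj {V K W : Subgroup G} (h : TriAct V K W) {a : G} (ha : a ∈ normalizer (V : Set G)) :
    TriAct V (cj a K) (cj a W) := by
  have hV : cj a V = V := map_conj_eq_of_mem ha
  obtain ⟨K₀, h1, h2, h3, h4⟩ := h.core
  refine ⟨?_, ?_, ?_, ?_, ?_, ?_, cj a K₀, map_conj_mono a h1, ?_, ?_, ?_⟩
  · have := map_conj_mono a h.norm
    rwa [map_conj_normalizer, show V.map (MulAut.conj a).toMonoidHom = V from hV] at this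
  · have := map_conj_mono a h.WV
    rwa [show V.map (MulAut.conj a).toMonoidHom = V from hV] at this
  · show Nat.card (W.map _) = 4
    rw [card_map_conj, h.card]
  · have := map_conj_mono a h.comm
    rwa [map_commutator, show V.map (MulAut.conj a).toMonoidHom = V from hV] at this
  · show ⁅W.map _, K.map _⁆ = W.map _
    rw [← map_commutator, h.idem]
  · show W.map _ ⊓ centralizer ((K.map _ : Subgroup G) : Set G) = ⊥
    rw [← map_conj_centralizer, ← map_inf _ _ _ (MulAut.conj a).injective, h.fpf, Subgroup.map_bot]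
  · have := map_conj_mono a h2
    rwa [map_conj_centralizer, show V.map (MulAut.conj a).toMonoidHom = V from hV] at this
  · have := map_conj_mono a h3
    rwa [map_conj_normalizer] at this
  · show (K₀.map (MulAut.conj a).toMonoidHom).relIndex (K.map (MulAut.conj a).toMonoidHom) = 3
    rw [relIndex_map_map_of_injective _ _ (MulAut.conj a).injective, h4]

/-- pair lemma -/
theorem TriAct.pair {V Y K K' W W' : Subgroup G} (hV : EA V) (h : TriAct V K W) (h' : TriAct V K' W')
    (hs : Subn K Y) (hs' : Subn K' Y) (hne : W ≠ W') : K' ≤ centralizer (W : Set G) := by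
  classical
  have : Fact (Nat.Prime 3) := ⟨Nat.prime_three⟩
  set U := W ⊔ W' with hU
  have hUV : U ≤ V := sup_le h.WV h'.WV
  have hVc : V ≤ centralizer (V : Set G) := (ThompsonJ.elemAb_iff.mp hV).1
  have hUea : EA U := ThompsonJ.elemAb_mono hV hUV
  have hKU : K ≤ normalizer (U : Set G) := by
    rw [Subgroup.le_normalizer_iff_commutator_le_left]
    exact (commutator_mono hUV le_rfl).trans (h.comm.trans le_sup_left)
  have hK'U : K' ≤ normalizer (U : Set G) := by
    rw [Subgroup.le_normalizer_iff_commutator_le_left]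
    exact (commutator_mono hUV le_rfl).trans (h'.comm.trans le_sup_right)
  have hWW' : W' ≤ normalizer (W : Set G) := (h'.WV.trans (hVc.trans (centralizer_le h.WV))).trans (centralizer_le_normalizer _)
  -- the order of `U`
  have hcU : Nat.card U ∣ 16 := by
    have h1 := SubgroupTools.card_sup_mul_card_inf hWW'
    rw [h.card, h'.card] at h1
    exact Dvd.intro _ h1
  obtain ⟨e, he, hcard⟩ := (Nat.dvd_prime_pow Nat.prime_two).mp (show Nat.card U ∣ 2 ^ 4 from hcU)
  set N := normalizer (U : Set G) with hN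
  have hUN : U ≤ N := le_normalizer
  have hFn : (U.subgroupOf N).Normal := normal_subgroupOf_of_le_normalizer le_rfl
  have hab : ∀ a ∈ U.subgroupOf N, ∀ b ∈ U.subgroupOf N, a * b = b * a := by
    intro a ha b hb
    exact Subtype.ext ((mem_centralizer_iff.mp ((ThompsonJ.elemAb_iff.mp hUea).1 (mem_subgroupOf.mp ha)) _ (mem_subgroupOf.mp hb)).symm)
  have hexp : ∀ a ∈ U.subgroupOf N, a ^ 2 = 1 := by
    intro a ha
    exact Subtype.ext ((ThompsonJ.elemAb_iff.mp hUea).2 _ (mem_subgroupOf.mp ha))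
  have hcF : Nat.card (U.subgroupOf N) = 2 ^ e := by
    rw [SubgroupTools.card_subgroupOf_of_le hUN, hcard]
  obtain ⟨φ, hφ⟩ := H58ElemAb.exists_toGL (H := ↥N) (U.subgroupOf N) hFn 2 e hab hexp hcF
  have hker : ∀ x : ↥N, φ x = 1 ↔ (x : G) ∈ centralizer (U : Set G) := by
    intro x
    rw [← MonoidHom.mem_ker, hφ, mem_centralizer_iff, mem_centralizer_iff]
    constructor
    · intro h1 u hu
      exact congrArg Subtype.val (h1 ⟨u, hUN hu⟩ (mem_subgroupOf.mpr hu))
    · intro h1 u hu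
      exact Subtype.ext (h1 u (mem_subgroupOf.mp hu))
  set H := K ⊔ K' with hH
  have hHN : H ≤ N := sup_le hKU hK'U
  have hHY : H ≤ Y := sup_le hs.le hs'.le
  let ψ : ↥H →* GL (Fin e) (ZMod 2) := φ.comp (inclusion hHN)
  have hψ : ∀ x : ↥H, ψ x = 1 ↔ (x : G) ∈ centralizer (U : Set G) := fun x => hker _
  have key : ∀ {K W : Subgroup G}, TriAct V K W → K ≤ H → Subn K Y → (K.subgroupOf H).map ψ ≤ pCoreOf 3 ψ.range := by
    intro K W h hKH hs
    have h1 : Subn (K.subgroupOf H) ⊤ := by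
      have := (hs.of_le hKH hHY).comap H.subtype
      rwa [Subgroup.comap_subtype, Subgroup.comap_subtype, Subgroup.subgroupOf_self] at this
    have h2 := h1.map ψ
    rw [← MonoidHom.range_eq_map] at h2
    apply h2.le_pCoreOf
    obtain ⟨K₀, hK₀, hK₀V, hK₀n, hidx⟩ := h.core
    rintro ⟨_, ⟨x, hx, rfl⟩⟩
    refine ⟨1, Subtype.ext ?_⟩
    show (ψ x) ^ 3 ^ 1 = 1
    rw [← map_pow, hψ]
    have h3 : (K₀.subgroupOf K).Normal := normal_subgroupOf_of_le_normalizer hK₀n
    have h4 := (K₀.subgroupOf K).pow_index_mem ⟨(x : G), hx⟩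
    have h5 : (K₀.subgroupOf K).index = 3 := hidx
    rw [h5, mem_subgroupOf] at h4
    exact centralizer_le (show (U : Set G) ⊆ V from hUV) (hK₀V h4)
  have hR3 : IsPGroup 3 ψ.range := by
    have h1 : ψ.range ≤ pCoreOf 3 ψ.range := by
      have h2 : (K.subgroupOf H ⊔ K'.subgroupOf H) = ⊤ := by
        rw [← Subgroup.subgroupOf_sup le_sup_left le_sup_right, Subgroup.subgroupOf_self]
      rw [MonoidHom.range_eq_map, ← h2, Subgroup.map_sup]
      have h3 := key h le_sup_left hs
      have h4 := key h' le_sup_right hs'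
      rw [MonoidHom.range_eq_map, ← h2, Subgroup.map_sup] at h3 h4
      exact sup_le h3 h4
    exact (isPGroup_pCoreOf 3 _).to_le h1
  have he4 : e ≤ 4 := he
  have hcomm := comm_of_card_dvd_nine (card_dvd_nine_of_GL he4 hR3)
  -- `[K', K]` centralizes `U`
  have hkk : ∀ y ∈ K', ∀ k ∈ K, ⁅y, k⁆ ∈ centralizer (U : Set G) := by
    intro y hy k hk
    have hyH : y ∈ H := mem_sup_right hy
    have hkH : k ∈ H := mem_sup_left hk
    have h1 := (hψ ⁅(⟨y, hyH⟩ : ↥H), ⟨k, hkH⟩⁆).mp (by
      rw [map_commutatorElement, commutatorElement_eq_one_iff_mul_comm]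
      exact congrArg Subtype.val (hcomm ⟨ψ ⟨y, hyH⟩, ⟨_, rfl⟩⟩ ⟨ψ ⟨k, hkH⟩, ⟨_, rfl⟩⟩))
    exact h1
  have hUK : ⁅U, K⁆ = W := by
    apply le_antisymm ((commutator_mono hUV le_rfl).trans h.comm)
    exact h.idem.ge.trans (commutator_mono le_sup_left le_rfl)
  have hUK' : ⁅U, K'⁆ ≤ W' := (commutator_mono hUV le_rfl).trans h'.comm
  -- `K'` normalizes `W`
  have hK'W : K' ≤ normalizer (W : Set G) := by
    have h1 : ∀ y ∈ K', cj y W ≤ W := by
      intro y hy
      conv_lhs => rw [← hUK]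
      show (⁅U, K⁆).map _ ≤ W
      rw [map_le_iff_le_comap, commutator_le]
      intro u hu k hk
      rw [mem_comap]
      show y * ⁅u, k⁆ * y⁻¹ ∈ W
      have hu' : y * u * y⁻¹ ∈ U := conj_mem_of_le_normalizer hK'U hy hu
      have hc := hkk y hy k hk
      have e1 : y * ⁅u, k⁆ * y⁻¹ = ⁅y * u * y⁻¹, ⁅y, k⁆ * k⁆ := by
        simp only [commutatorElement_def]; group
      have e2 : ⁅y * u * y⁻¹, ⁅y, k⁆ * k⁆ = ⁅y * u * y⁻¹, k⁆ := by
        set u' := y * u * y⁻¹ with hu'd
        set c := ⁅y, k⁆ with hcd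
        have h2 : u' * c = c * u' := mem_centralizer_iff.mp hc _ hu'
        have h3 : ⁅u', c * k⁆ = c * ⁅u', k⁆ * c⁻¹ := by
          simp only [commutatorElement_def]
          calc u' * (c * k) * u'⁻¹ * (c * k)⁻¹ = (u' * c) * k * u'⁻¹ * k⁻¹ * c⁻¹ := by group
            _ = (c * u') * k * u'⁻¹ * k⁻¹ * c⁻¹ := by rw [h2]
            _ = _ := by group
        rw [h3]
        have h4 : ⁅u', k⁆ ∈ U := (commutator_le_left_of_le hKU) (commutator_mem_commutator hu' hk)
        have h5 : ⁅u', k⁆ * c = c * ⁅u', k⁆ := mem_centralizer_iff.mp hc _ h4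
        rw [← h5]; group
      rw [e1, e2, ← hUK]
      exact commutator_mem_commutator hu' hk
    intro y hy
    exact mem_normalizer_of_map_conj_le (h1 y hy)
  have hI : W ⊓ W' = ⊥ := by
    have h1 : K' ≤ normalizer ((W ⊓ W' : Subgroup G) : Set G) := by
      apply le_normalizer_inf hK'W
      rw [Subgroup.le_normalizer_iff_commutator_le_left]
      exact h'.idem.le
    by_contra hne'
    have h2 : Nat.card (W ⊓ W' : Subgroup G) ∣ 4 := by
      have := card_dvd_of_le (inf_le_right : W ⊓ W' ≤ W')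
      rwa [h'.card] at this
    rcases Nat.lt_or_ge (Nat.card (W ⊓ W' : Subgroup G)) 3 with h3 | h3
    · have h4 := TvStruct.le_centralizer_of_card_le_two h1 (by omega)
      apply hne'
      rw [eq_bot_iff, ← h'.fpf]
      exact le_inf inf_le_right h4
    · have h4 : Nat.card (W ⊓ W' : Subgroup G) = 4 := by
        have := Nat.le_of_dvd (by norm_num) h2
        interval_cases (Nat.card (W ⊓ W' : Subgroup G))
        · omega
        · rfl
      have h5 : W ⊓ W' = W := Subgroup.eq_of_le_of_card_ge inf_le_left (by rw [h4, h.card])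
      have h6 : W ⊓ W' = W' := Subgroup.eq_of_le_of_card_ge inf_le_right (by rw [h4, h'.card])
      exact hne (h5.symm.trans h6)
  have h1 : ⁅W, K'⁆ = ⊥ := by
    rw [eq_bot_iff, ← hI]
    exact le_inf (commutator_le_left_of_le hK'W) ((commutator_mono le_sup_left le_rfl).trans hUK')
  rw [commutator_eq_bot_iff_le_centralizer] at h1
  rwa [le_centralizer_iff]

theorem card_quot_le {V M : Type*} [Group V] [Finite V] [Group M] (Φ : V →* M) {X Y : Subgroup V} (hYX : Y ≤ X) :
    Nat.card Y * Nat.card (X.map Φ) ≤ Nat.card X * Nat.card (Y.map Φ) := by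
  have h1 := SubgroupTools.card_map_mul_card_inf_ker Φ X
  have h2 := SubgroupTools.card_map_mul_card_inf_ker Φ Y
  have h3 : Nat.card (Y ⊓ Φ.ker : Subgroup V) ≤ Nat.card (X ⊓ Φ.ker : Subgroup V) :=
    card_le_of_le (inf_le_inf_right _ hYX)
  rw [← h1, ← h2]
  calc Nat.card (Y.map Φ) * Nat.card (Y ⊓ Φ.ker : Subgroup V) * Nat.card (X.map Φ)
      ≤ Nat.card (Y.map Φ) * Nat.card (X ⊓ Φ.ker : Subgroup V) * Nat.card (X.map Φ) :=
        Nat.mul_le_mul_right _ (Nat.mul_le_mul_left _ h3)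
    _ = _ := by ring

theorem four_pow_le {n : ℕ} (h : 4 ^ n ≤ 4 * n) : n ≤ 1 := by
  by_contra hn
  push Not at hn
  have : ∀ m : ℕ, 2 ≤ m → 4 * m < 4 ^ m := by
    intro m hm
    induction m, hm using Nat.le_induction with
    | base => norm_num
    | succ m hm ih => rw [pow_succ]; omega
  have := this n (by omega)
  omega

theorem TriAct.offender {V K W A : Subgroup G} (hV : EA V) (h : TriAct V K W) (hA : EA A)
    (hAV : A ≤ normalizer (V : Set G))
    (hN : ∀ a ∈ A, a ∈ normalizer (W : Set G) → a ∈ normalizer (K : Set G))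
    (hC : ∀ a ∈ A, a ∉ normalizer (W : Set G) → K ≤ centralizer (cj a W : Set G))
    (hoff : Nat.card (A ⊓ centralizer (W : Set G) : Subgroup G) *
      Nat.card (V ⊓ centralizer ((A ⊓ centralizer (W : Set G) : Subgroup G) : Set G) : Subgroup G) ≤
      Nat.card A * Nat.card (V ⊓ centralizer (A : Set G) : Subgroup G)) : A ≤ normalizer (W : Set G) := by
  classical
  have hVc := (ThompsonJ.elemAb_iff.mp hV).1
  have hV2 := (ThompsonJ.elemAb_iff.mp hV).2
  have hAc := (ThompsonJ.elemAb_iff.mp hA).1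
  let _ : CommGroup ↥V := { (inferInstance : Group ↥V) with
    mul_comm := fun a b => Subtype.ext (mem_centralizer_iff.mp (hVc b.2) _ a.2) }
  obtain ⟨K₀, hK₀, hK₀V, hK₀n, hidx⟩ := h.core
  let ρ : ↥(normalizer (V : Set G)) →* MulAut ↥V := V.normalizerMonoidHom
  have hρ : ∀ (n : ↥(normalizer (V : Set G))) (v : ↥V), ((ρ n v : ↥V) : G) = n * v * (n : G)⁻¹ := fun n v => rfl
  have hvv : ∀ v : ↥V, v * v = 1 := by
    intro v
    have := hV2 _ v.2
    rw [pow_two] at this
    exact Subtype.ext this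
  obtain ⟨k, hk, hkK₀⟩ : ∃ k ∈ K, k ∉ K₀ := by
    by_contra hcon
    push Not at hcon
    have : K₀.relIndex K = 1 := relIndex_eq_one.mpr hcon
    omega
  have tri : ∀ x ∈ K, x ∈ K₀ ∨ k⁻¹ * x ∈ K₀ ∨ (k ^ 2)⁻¹ * x ∈ K₀ := by
    intro x hx
    have hn : (K₀.subgroupOf K).Normal := normal_subgroupOf_of_le_normalizer hK₀n
    have hQ : Nat.card (↥K ⧸ K₀.subgroupOf K) = 3 := hidx
    have : Fact (Nat.Prime 3) := ⟨Nat.prime_three⟩
    have hne : ((⟨k, hk⟩ : ↥K) : ↥K ⧸ K₀.subgroupOf K) ≠ 1 := by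
      intro h1
      rw [QuotientGroup.eq_one_iff, mem_subgroupOf] at h1
      exact hkK₀ h1
    obtain ⟨n, hn2⟩ := mem_powers_of_prime_card (g' := ((⟨x, hx⟩ : ↥K) : ↥K ⧸ K₀.subgroupOf K)) hQ hne
    have hn3 : ((⟨k, hk⟩ : ↥K) : ↥K ⧸ K₀.subgroupOf K) ^ (n % 3) = ((⟨x, hx⟩ : ↥K) : ↥K ⧸ K₀.subgroupOf K) := by
      have hn2' : ((⟨k, hk⟩ : ↥K) : ↥K ⧸ K₀.subgroupOf K) ^ n = ((⟨x, hx⟩ : ↥K) : ↥K ⧸ K₀.subgroupOf K) := hn2
      rw [← hn2', ← pow_mod_natCard _ n, hQ]
    rw [← QuotientGroup.mk_pow, QuotientGroup.eq, mem_subgroupOf] at hn3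
    have hlt : n % 3 < 3 := Nat.mod_lt _ (by norm_num)
    interval_cases hm : (n % 3)
    · left; simpa using hn3
    · right; left; simpa using hn3
    · right; right; simpa using hn3
  set kN : ↥(normalizer (V : Set G)) := ⟨k, h.norm hk⟩ with hkN
  have hk3 : ∀ v : ↥V, ρ (kN ^ 3) v = v := by
    intro v
    apply Subtype.ext
    rw [hρ]
    have hn : (K₀.subgroupOf K).Normal := normal_subgroupOf_of_le_normalizer hK₀n
    have h4 := (K₀.subgroupOf K).pow_index_mem ⟨k, hk⟩
    have h5 : (K₀.subgroupOf K).index = 3 := hidx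
    rw [h5, mem_subgroupOf] at h4
    have h6 : k ^ 3 ∈ centralizer (V : Set G) := hK₀V h4
    show k ^ 3 * v * (k ^ 3)⁻¹ = v
    rw [← mem_centralizer_iff.mp h6 v v.2, mul_inv_cancel_right]
  have hkne : ¬ k ∈ centralizer (V : Set G) := by
    intro hkV
    have h1 : K ≤ centralizer (V : Set G) := by
      intro x hx
      rcases tri x hx with h1 | h1 | h1
      · exact hK₀V h1
      · have := mul_mem hkV (hK₀V h1)
        rwa [mul_inv_cancel_left] at this
      · have := mul_mem (pow_mem hkV 2) (hK₀V h1)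
        rwa [mul_inv_cancel_left] at this
    have h2 : ⁅W, K⁆ = ⊥ := by
      rw [commutator_eq_bot_iff_le_centralizer, le_centralizer_iff]
      exact h1.trans (centralizer_le h.WV)
    have h3 := h.card
    rw [← h.idem, h2, card_bot] at h3
    omega
  let π : ↥V →* ↥V := MonoidHom.mk' (fun v => ρ kN v * ρ (kN ^ 2) v) (by
    intro a b
    rw [map_mul, map_mul]
    exact mul_mul_mul_comm _ _ _ _)
  have hπ : ∀ v, π v = ρ kN v * ρ (kN ^ 2) v := fun v => rfl
  have hWcomm : ∀ (x : G) (hx : x ∈ K) (v : ↥V), x * (v : G) * x⁻¹ * (v : G)⁻¹ ∈ W := by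
    intro x hx v
    apply h.comm
    rw [commutator_comm]
    exact commutator_mem_commutator hx v.2
  have F1 : ∀ v : ↥V, ((π v : ↥V) : G) ∈ W := by
    intro v
    have h1 : π v = (ρ kN v * v⁻¹) * (ρ (kN ^ 2) v * v⁻¹) := by
      rw [hπ, mul_mul_mul_comm]
      have : v⁻¹ * v⁻¹ = 1 := by rw [← mul_inv, hvv, inv_one]
      rw [this, mul_one]
    rw [h1]
    exact mul_mem (hWcomm k hk v) (hWcomm (k ^ 2) (pow_mem hk 2) v)
  have F2 : ∀ v : ↥V, (v : G) ∈ W → π v = v := by
    intro v hv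
    set f := v * ρ kN v * ρ (kN ^ 2) v with hf
    have h1 : ρ kN f = f := by
      rw [hf, map_mul, map_mul, ← MulAut.mul_apply, ← MulAut.mul_apply, ← map_mul, ← map_mul, ← pow_succ', ← pow_two,
        hk3]
      rw [mul_comm _ v, mul_assoc]
    have hfW : (f : G) ∈ W := by
      have h2 : (f : G) = v * π v := by rw [hf, hπ, mul_assoc]; rfl
      rw [h2]
      exact mul_mem hv (F1 v)
    have hkf : k * (f : G) * k⁻¹ = f := congrArg Subtype.val h1
    have h2 : (f : G) ∈ centralizer (K : Set G) := by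
      have hck : k ∈ centralizer ({(f : G)} : Set G) := by
        rw [mem_centralizer_singleton_iff]
        rw [mul_inv_eq_iff_eq_mul] at hkf; exact hkf
      rw [mem_centralizer_iff]
      intro x hx
      have h3 : x ∈ centralizer ({(f : G)} : Set G) := by
        have hz : ∀ z ∈ K₀, z ∈ centralizer ({(f : G)} : Set G) := by
          intro z hz
          rw [mem_centralizer_singleton_iff]
          exact (mem_centralizer_iff.mp (hK₀V hz) _ f.2).symm
        rcases tri x hx with h1 | h1 | h1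
        · exact hz _ h1
        · have := mul_mem hck (hz _ h1)
          rwa [mul_inv_cancel_left] at this
        · have := mul_mem (pow_mem hck 2) (hz _ h1)
          rwa [mul_inv_cancel_left] at this
      exact mem_centralizer_singleton_iff.mp h3
    have h3 : (f : G) ∈ W ⊓ centralizer (K : Set G) := ⟨hfW, h2⟩
    rw [h.fpf, mem_bot] at h3
    have h4 : v * π v = 1 := by
      rw [hπ, ← mul_assoc]; exact Subtype.ext h3
    calc π v = v⁻¹ * (v * π v) := by group
      _ = v⁻¹ := by rw [h4, mul_one]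
      _ = v := inv_eq_of_mul_eq_one_left (hvv v)
  have F3 : ∀ (a : ↥(normalizer (V : Set G))), (a : G) ∈ A → (a : G) ∉ normalizer (W : Set G) → ∀ v : ↥V, (v : G) ∈ W →
      π (ρ a v) = 1 := by
    intro a ha haN v hv
    have h1 := hC a ha haN
    have h2 : ((ρ a v : ↥V) : G) ∈ cj (a : G) W := ⟨v, hv, rfl⟩
    have h3 : ∀ x ∈ K, x * ((ρ a v : ↥V) : G) * x⁻¹ = (ρ a v : ↥V) := by
      intro x hx
      rw [← mem_centralizer_iff.mp (h1 hx) _ h2, mul_inv_cancel_right]
    have h4 : ρ kN (ρ a v) = ρ a v := Subtype.ext (h3 k hk)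
    have h5 : ρ (kN ^ 2) (ρ a v) = ρ a v := Subtype.ext (h3 (k ^ 2) (pow_mem hk 2))
    rw [hπ, h4, h5, hvv]
  have F4 : ∀ (a : ↥(normalizer (V : Set G))), (a : G) ∈ A → (a : G) ∈ normalizer (W : Set G) → ∀ v : ↥V,
      π (ρ a v) = ρ a (π v) := by
    intro a ha haN v
    have h1 := hN a ha haN
    obtain ⟨k', hk'⟩ : ∃ k' : ↥(normalizer (V : Set G)), k' = a⁻¹ * kN * a := ⟨_, rfl⟩
    have hk'K : (k' : G) ∈ K := by
      have := (mem_normalizer_iff.mp (inv_mem h1) k).mp hk
      rw [inv_inv] at this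
      rw [hk']
      exact this
    have e1 : ρ kN (ρ a v) = ρ a (ρ k' v) := by
      rw [← MulAut.mul_apply, ← MulAut.mul_apply, ← map_mul, ← map_mul]
      congr 2
      rw [hk']; group
    have e2 : ρ (kN ^ 2) (ρ a v) = ρ a (ρ (k' ^ 2) v) := by
      rw [← MulAut.mul_apply, ← MulAut.mul_apply, ← map_mul, ← map_mul]
      congr 2
      rw [hk', pow_two, pow_two]; group
    rw [hπ, e1, e2, ← map_mul, hπ]
    congr 1
    have hz : ∀ z : ↥(normalizer (V : Set G)), (z : G) ∈ K₀ → ∀ v, ρ z v = v := by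
      intro z hz v
      apply Subtype.ext
      rw [hρ, ← mem_centralizer_iff.mp (hK₀V hz) v v.2, mul_inv_cancel_right]
    rcases tri k' hk'K with h2 | h2 | h2
    · exfalso
      apply hkne
      have h3 := hK₀V h2
      have h4 := (mem_normalizer_iff.mp ((le_normalizer_centralizer (le_refl (normalizer (V : Set G)))) a.2) (k' : G)).mp h3
      have h5 : (a : G) * k' * (a : G)⁻¹ = k := by
        rw [hk']; show (a : G) * ((a : G)⁻¹ * k * a) * (a : G)⁻¹ = k; group
      rwa [h5] at h4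
    · have h3 : ∀ u, ρ k' u = ρ kN u := by
        intro u
        have : k' = kN * (kN⁻¹ * k') := by group
        conv_lhs => rw [this, map_mul, MulAut.mul_apply, hz (kN⁻¹ * k') h2]
      rw [pow_two, pow_two, map_mul, map_mul, MulAut.mul_apply, MulAut.mul_apply, h3, h3]
    · have h3 : ∀ u, ρ k' u = ρ (kN ^ 2) u := by
        intro u
        have : k' = kN ^ 2 * ((kN ^ 2)⁻¹ * k') := by group
        conv_lhs => rw [this, map_mul, MulAut.mul_apply, hz ((kN ^ 2)⁻¹ * k') h2]
      have h4 : ρ (k' ^ 2) v = ρ kN v := by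
        rw [pow_two, map_mul, MulAut.mul_apply, h3, h3, ← MulAut.mul_apply, ← map_mul, ← pow_add]
        have : kN ^ (2 + 2) = kN * kN ^ 3 := by rw [← pow_succ']
        rw [this, map_mul, MulAut.mul_apply, hk3]
      rw [h3, h4, mul_comm]
  -- the homomorphism to functions on cosets
  set A₁ := A ⊓ normalizer (W : Set G) with hA₁
  set A₀ := A ⊓ centralizer (W : Set G) with hA₀
  let s : (↥A ⧸ A₁.subgroupOf A) → ↥(normalizer (V : Set G)) := fun i => ⟨((Quotient.out i : ↥A) : G), hAV (Quotient.out i).2⟩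
  have hsA : ∀ i, ((s i : ↥(normalizer (V : Set G))) : G) ∈ A := fun i => (Quotient.out i).2
  let Φ : ↥V →* ((↥A ⧸ A₁.subgroupOf A) → ↥V) := MonoidHom.mk' (fun v i => π (ρ (s i)⁻¹ v)) (by
    intro a b
    funext i
    show π (ρ (s i)⁻¹ (a * b)) = π (ρ (s i)⁻¹ a) * π (ρ (s i)⁻¹ b)
    rw [map_mul, map_mul])
  have hΦ : ∀ v i, Φ v i = π (ρ (s i)⁻¹ v) := fun v i => rfl
  set X := (V ⊓ centralizer (A₀ : Set G)).subgroupOf V with hX
  set Y := (V ⊓ centralizer (A : Set G)).subgroupOf V with hY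
  have hYX : Y ≤ X := by
    apply Subgroup.comap_mono
    exact inf_le_inf_left _ (centralizer_le (show (A₀ : Set G) ⊆ A from (inf_le_left : A₀ ≤ A)))
  have hcX : Nat.card X = Nat.card (V ⊓ centralizer (A₀ : Set G) : Subgroup G) := SubgroupTools.card_subgroupOf_of_le inf_le_left
  have hcY : Nat.card Y = Nat.card (V ⊓ centralizer (A : Set G) : Subgroup G) := SubgroupTools.card_subgroupOf_of_le inf_le_left
  have hfι : Fintype (↥A ⧸ A₁.subgroupOf A) := Fintype.ofFinite _
  have hρρ : ∀ (a b : ↥(normalizer (V : Set G))) (v : ↥V), ρ a⁻¹ (ρ b v) = ρ (a⁻¹ * b) v := by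
    intro a b v
    rw [← MulAut.mul_apply, ← map_mul]
  -- lower bound
  have hlow : 4 ^ Nat.card (↥A ⧸ A₁.subgroupOf A) ≤ Nat.card (X.map Φ) := by
    have h1 : Nat.card ((↥A ⧸ A₁.subgroupOf A) → ↥W) = 4 ^ Nat.card (↥A ⧸ A₁.subgroupOf A) := by
      rw [Nat.card_fun, h.card]
    rw [← h1]
    have hmem : ∀ w : (↥A ⧸ A₁.subgroupOf A) → ↥W, (fun i => (⟨(w i : G), h.WV (w i).2⟩ : ↥V)) ∈ X.map Φ := by
      intro w
      refine ⟨∏ j, ρ (s j) ⟨(w j : G), h.WV (w j).2⟩, ?_, ?_⟩
      · apply Subgroup.prod_mem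
        intro j _
        rw [hX, mem_subgroupOf]
        refine mem_inf.mpr ⟨(ρ (s j) _).2, ?_⟩
        rw [mem_centralizer_iff]
        intro a ha
        obtain ⟨haA, haW⟩ := mem_inf.mp (show a ∈ A₀ from ha)
        rw [hρ]
        have h2 : a * (s j : G) = (s j : G) * a := (mem_centralizer_iff.mp (hAc haA) _ (hsA j)).symm
        have h3 : a * (w j : G) = (w j : G) * a := (mem_centralizer_iff.mp haW _ (w j).2).symm
        have h4 : a * (s j : G)⁻¹ = (s j : G)⁻¹ * a := by
          rw [eq_inv_mul_iff_mul_eq, ← mul_assoc, ← h2, mul_inv_cancel_right]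
        show a * ((s j : G) * (w j : G) * (s j : G)⁻¹) = (s j : G) * (w j : G) * (s j : G)⁻¹ * a
        calc a * ((s j : G) * (w j : G) * (s j : G)⁻¹) = (a * (s j : G)) * (w j : G) * (s j : G)⁻¹ := by group
          _ = (s j : G) * (a * (w j : G)) * (s j : G)⁻¹ := by rw [h2]; group
          _ = (s j : G) * (w j : G) * (a * (s j : G)⁻¹) := by rw [h3]; group
          _ = _ := by rw [h4]; group
      · funext i
        rw [hΦ, map_prod, map_prod]
        rw [Finset.prod_eq_single i]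
        · rw [hρρ, inv_mul_cancel, map_one]
          exact F2 _ (w i).2
        · intro j _ hji
          rw [hρρ]
          apply F3 _ _ _ _ (w j).2
          · exact mul_mem (inv_mem (hsA i)) (hsA j)
          · intro hmem
            apply hji
            have h2 : ((Quotient.out i : ↥A))⁻¹ * (Quotient.out j : ↥A) ∈ A₁.subgroupOf A := by
              rw [mem_subgroupOf]
              exact mem_inf.mpr ⟨mul_mem (inv_mem (hsA i)) (hsA j), hmem⟩
            have h3 := QuotientGroup.eq.mpr h2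
            have h4 : ((Quotient.out i : ↥A) : ↥A ⧸ A₁.subgroupOf A) = i := Quotient.out_eq' i
            have h5 : ((Quotient.out j : ↥A) : ↥A ⧸ A₁.subgroupOf A) = j := Quotient.out_eq' j
            rw [h4, h5] at h3
            exact h3.symm
        · intro hi; exact absurd (Finset.mem_univ i) hi
    apply Nat.card_le_card_of_injective (fun w => (⟨_, hmem w⟩ : ↥(X.map Φ)))
    intro w w' hww
    funext i
    have h2 := congrFun (congrArg Subtype.val hww) i
    exact Subtype.ext (congrArg (fun v : ↥V => (v : G)) h2)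
  -- upper bound
  have hYv : ∀ v ∈ Y, ∀ i, Φ v i = π v := by
    intro v hv i
    rw [hΦ]
    congr 1
    apply Subtype.ext
    rw [hρ]
    have h2 : (v : G) ∈ centralizer (A : Set G) := (mem_inf.mp (mem_subgroupOf.mp hv)).2
    have h3 := mem_centralizer_iff.mp h2 _ (inv_mem (hsA i))
    show (s i : G)⁻¹ * v * ((s i : G)⁻¹)⁻¹ = v
    rw [h3, mul_inv_cancel_right]
  have hup : Nat.card (Y.map Φ) ≤ Nat.card (W ⊓ centralizer (A₁ : Set G) : Subgroup G) := by
    have hmem : ∀ f : ↥(Y.map Φ), ((((f : (↥A ⧸ A₁.subgroupOf A) → ↥V) ((1 : ↥A) : ↥A ⧸ A₁.subgroupOf A)) : ↥V) : G) ∈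
        W ⊓ centralizer (A₁ : Set G) := by
      rintro ⟨_, v, hv, rfl⟩
      show ((Φ v _ : ↥V) : G) ∈ _
      rw [hYv v hv]
      refine mem_inf.mpr ⟨F1 v, ?_⟩
      rw [mem_centralizer_iff]
      intro a ha
      obtain ⟨haA, haN⟩ := mem_inf.mp (show a ∈ A₁ from ha)
      have h2 := F4 ⟨a, hAV haA⟩ haA haN v
      have h3 : ρ ⟨a, hAV haA⟩ v = v := by
        apply Subtype.ext
        rw [hρ]
        have h4 : (v : G) ∈ centralizer (A : Set G) := (mem_inf.mp (mem_subgroupOf.mp hv)).2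
        show a * v * a⁻¹ = v
        rw [mem_centralizer_iff.mp h4 a haA, mul_inv_cancel_right]
      rw [h3] at h2
      have h4 : (π v : G) = a * (π v : G) * a⁻¹ := congrArg Subtype.val h2
      show a * (π v : G) = (π v : G) * a
      rw [eq_mul_inv_iff_mul_eq] at h4
      exact h4.symm
    apply Nat.card_le_card_of_injective (fun f => (⟨_, hmem f⟩ : ↥(W ⊓ centralizer (A₁ : Set G))))
    rintro ⟨_, v, hv, rfl⟩ ⟨_, v', hv', rfl⟩ hff
    apply Subtype.ext
    funext i
    show Φ v i = Φ v' i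
    have h2 : ((Φ v ((1 : ↥A) : ↥A ⧸ A₁.subgroupOf A) : ↥V) : G) = (Φ v' ((1 : ↥A) : ↥A ⧸ A₁.subgroupOf A) : ↥V) :=
      congrArg (fun z : ↥(W ⊓ centralizer (A₁ : Set G)) => (z : G)) hff
    rw [hYv v hv, hYv v' hv'] at h2 ⊢
    exact Subtype.ext h2
  -- the final count
  have hq := card_quot_le Φ hYX
  have hA₁A : A₁ ≤ A := inf_le_left
  have hcard := SubgroupTools.card_mul_relIndex_of_le hA₁A
  have hrel : A₁.relIndex A = Nat.card (↥A ⧸ A₁.subgroupOf A) := rfl
  rw [hrel] at hcard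
  set n := Nat.card (↥A ⧸ A₁.subgroupOf A) with hn
  have hA₁W : A₁ ≤ normalizer (W : Set G) := inf_le_right
  have hA₁0 : A₁ ⊓ centralizer (W : Set G) = A₀ := by
    rw [hA₁, hA₀, inf_assoc, inf_eq_right.mpr (centralizer_le_normalizer _)]
  have h4 : Nat.card A₁ * Nat.card (W ⊓ centralizer (A₁ : Set G) : Subgroup G) ≤ 4 * Nat.card A₀ := by
    by_cases hle : A₁ ≤ centralizer (W : Set G)
    · rw [inf_eq_left.mpr hle] at hA₁0
      rw [hA₁0, mul_comm]
      apply Nat.mul_le_mul_right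
      rw [← h.card]; exact card_le_of_le inf_le_left
    · have h5 := card_le_two_mul_of_pgroup ((ThompsonJ.elemAb_isPGroup hA).to_le hA₁A) h.card hA₁W
      rw [hA₁0] at h5
      have h6 : Nat.card (W ⊓ centralizer (A₁ : Set G) : Subgroup G) ≤ 2 := by
        have h7 : W ⊓ centralizer (A₁ : Set G) < W := lt_of_le_of_ne inf_le_left (by
          intro e
          apply hle
          rw [le_centralizer_iff]
          exact inf_eq_left.mp e)
        have := two_mul_card_le h7
        rw [h.card] at this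
        omega
      calc _ ≤ (2 * Nat.card A₀) * 2 := Nat.mul_le_mul h5 h6
        _ = _ := by ring
  have hn1 : n ≤ 1 := by
    apply four_pow_le
    have hYpos : 0 < Nat.card Y := Nat.card_pos
    have hA₀pos : 0 < Nat.card A₀ := Nat.card_pos
    rw [← hcX, ← hcY] at hoff
    set c := Nat.card (W ⊓ centralizer (A₁ : Set G) : Subgroup G) with hc
    have h5 : Nat.card Y * 4 ^ n ≤ Nat.card X * c := by
      calc _ ≤ Nat.card Y * Nat.card (X.map Φ) := Nat.mul_le_mul_left _ hlow
        _ ≤ Nat.card X * Nat.card (Y.map Φ) := hq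
        _ ≤ _ := Nat.mul_le_mul_left _ hup
    have h6 : (Nat.card A₀ * Nat.card Y) * 4 ^ n ≤ (Nat.card A₀ * Nat.card Y) * (4 * n) := by
      calc (Nat.card A₀ * Nat.card Y) * 4 ^ n = Nat.card A₀ * (Nat.card Y * 4 ^ n) := by ring
        _ ≤ Nat.card A₀ * (Nat.card X * c) := Nat.mul_le_mul_left _ h5
        _ = (Nat.card A₀ * Nat.card X) * c := by ring
        _ ≤ (Nat.card A * Nat.card Y) * c := Nat.mul_le_mul_right _ hoff
        _ = (Nat.card A₁ * c) * (n * Nat.card Y) := by rw [← hcard]; ring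
        _ ≤ (4 * Nat.card A₀) * (n * Nat.card Y) := Nat.mul_le_mul_right _ h4
        _ = _ := by ring
    exact Nat.le_of_mul_le_mul_left h6 (Nat.mul_pos hA₀pos hYpos)
  have hn0 : n = 1 := by
    have : 0 < n := Nat.card_pos
    omega
  rw [hn0, mul_one] at hcard
  have : A₁ = A := Subgroup.eq_of_le_of_card_ge hA₁A hcard.ge
  rw [← this]; exact hA₁W

/-- `K` acts on `Ω₁(Z(O₂(Y)))`. -/
theorem Zero.triAct {J K : Subgroup G} (h : Zero J K) {Y : Subgroup G} (hKY : Subn K Y) :
    TriAct (Cfsg.omegaCenterOf (Cfsg.pCoreOf 2 Y)) K (Cfsg.wOf K) ∧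
      Cfsg.pCoreOf 2 Y ≤ centralizer (Cfsg.wOf K : Set G) := by
  have hf := h.facts
  set P := Cfsg.pCoreOf 2 Y with hP
  set W := Cfsg.wOf K with hW
  have hPp : IsPGroup 2 P := isPGroup_pCoreOf 2 Y
  have hKP : K ≤ normalizer (P : Set G) := hKY.le.trans (le_normalizer_pCoreOf 2 Y)
  have hPK : P ≤ normalizer (K : Set G) := by
    have h1 := commutator_pRes_idem (p := 2) (K := K) hPp hKP
    rw [hf.res] at h1
    have h2 := hKY.commutator_le_of_idem (A := P) (B := K) (pCoreOf_le Y) le_rfl h1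
    rw [Subgroup.le_normalizer_iff_commutator_le_left, commutator_comm]
    exact h2
  have hPW : P ≤ normalizer (W : Set G) := hPK.trans (normalizer_le_normalizer_wOf K)
  have hKW : K ≤ normalizer (W : Set G) := le_sup_left.trans hf.X_norm_W
  have hWO : W ≤ Cfsg.pCoreOf 2 K := wOf_le_core K
  have hOP : Cfsg.pCoreOf 2 K ≤ P := hKY.pCoreOf_le
  -- `P` centralizes `W`
  have hPC : P ≤ centralizer (W : Set G) := by
    have hWp : IsPGroup 2 W := hPp.to_le (hWO.trans hOP)
    set M := ⁅W, P⁆ with hM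
    have hMK : K ≤ normalizer (M : Set G) := le_normalizer_commutator hKW hKP
    have hMW : M < W := CoprimeAction2.commutator_lt_of_pgroup hPp hWp hPW hf.W_ne
    have h2 := two_mul_card_le hMW
    rw [hf.Wcard] at h2
    have h5 := TvStruct.le_centralizer_of_card_le_two hMK (by omega)
    have h6 : M = ⊥ := by
      rw [eq_bot_iff, ← hf.W_inf_centralizer]
      exact le_inf hMW.le h5
    rw [hM, commutator_eq_bot_iff_le_centralizer, le_centralizer_iff] at h6
    exact h6
  set V := Cfsg.omegaCenterOf P with hV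
  have hVP : V ≤ P := omegaCenterOf_le P
  have hKV : K ≤ normalizer (V : Set G) := hKP.trans (normalizer_le_normalizer_omegaCenterOf P)
  have hWV : W ≤ V := by
    intro w hw
    rw [hV, mem_omegaCenterOf]
    exact ⟨(hWO.trans hOP) hw, (le_centralizer_iff.mp hPC) hw, (ThompsonJ.elemAb_iff.mp EA_wOf).2 _ hw⟩
  refine ⟨⟨hKV, hWV, hf.Wcard, ?_, hf.W_idem, hf.W_inf_centralizer, Cfsg.pCoreOf 2 K, pCoreOf_le K, ?_, le_normalizer_pCoreOf 2 K, hf.idx⟩, hPC⟩
  · have h1 : ⁅V, K⁆ ≤ Cfsg.omegaCenterOf (Cfsg.pCoreOf 2 K) := by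
      have h2 : ⁅V, K⁆ ≤ V := commutator_le_left_of_le hKV
      have h3 : ⁅V, K⁆ ≤ K := (commutator_mono hVP le_rfl).trans (commutator_le_right_of_le hPK)
      have h4 : V ⊓ K ≤ Cfsg.pCoreOf 2 K := by
        apply le_pCoreOf inf_le_right (le_normalizer_inf hKV le_normalizer) (hPp.to_le (inf_le_left.trans hVP))
      intro x hx
      have hxV := h2 hx
      rw [mem_omegaCenterOf]
      refine ⟨h4 ⟨hxV, h3 hx⟩, ?_, ?_⟩
      · exact centralizer_le (show (Cfsg.pCoreOf 2 K : Set G) ⊆ P from hOP) (omegaCenterOf_le_centralizer P hxV)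
      · exact (ThompsonJ.elemAb_iff.mp (EA_omegaCenterOf P)).2 _ hxV
    have h5 := commutator_pRes_idem (p := 2) (K := K) (hPp.to_le hVP) hKV
    rw [hf.res] at h5
    rw [← h5]
    exact commutator_mono h1 le_rfl
  · exact hOP.trans (le_centralizer_iff.mp (omegaCenterOf_le_centralizer P))

theorem Zero.sub (hZN : ZNHyp G) {T L K : Subgroup G} (hL : LH T L) (hKL : K ≤ L) (hsn : Subn K (K ⊔ JJ T))
    {g : G} (hz : Zero (cj g (JJ T)) K) : Zero (JJ T) K := by
  set Y := K ⊔ JJ T with hY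
  obtain ⟨htri, -⟩ := hz.triAct hsn
  set P := Cfsg.pCoreOf 2 Y with hP
  set V := Cfsg.omegaCenterOf P with hV
  set W := Cfsg.wOf K with hW
  have hYV : Y ≤ normalizer (V : Set G) :=
    (le_normalizer_pCoreOf 2 Y).trans (normalizer_le_normalizer_omegaCenterOf P)
  have hYL : Y ≤ L := sup_le hKL hL.JJ_leL
  have hVL : V ≤ L := ((omegaCenterOf_le P).trans (pCoreOf_le Y)).trans hYL
  have hVE : EA V := EA_omegaCenterOf P
  have hJW : JJ T ≤ normalizer (W : Set G) := by
    rw [JJ_eq]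
    apply sSup_le
    intro A hA
    have hAJ : A ≤ JJ T := le_JJ hA
    have hAY : A ≤ Y := hAJ.trans le_sup_right
    have hAE : EA A := hA.2.1
    have hAc := (ThompsonJ.elemAb_iff.mp hAE).1
    apply htri.offender hVE hAE (hAY.trans hYV)
    · intro a _ haN
      rw [hz.normalizer_eq hZN]; exact haN
    · intro a ha haN
      have haV := hYV (hAY ha)
      have h1 := htri.conj haV
      have h2 : Subn (cj a K) Y := by
        have h3 := hsn.map (MulAut.conj a).toMonoidHom
        have h4 : Y.map (MulAut.conj a).toMonoidHom = Y := map_conj_eq_of_mem (le_normalizer (hAY ha))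
        rwa [h4] at h3
      apply h1.pair hVE htri h2 hsn
      intro e
      exact haN (mem_normalizer_of_map_conj_eq e)
    · set A₀ := A ⊓ centralizer (W : Set G) with hA₀
      set X := V ⊓ centralizer (A₀ : Set G) with hX
      have hA₀E : EA A₀ := ThompsonJ.elemAb_mono hAE inf_le_left
      have hXE : EA X := ThompsonJ.elemAb_mono hVE inf_le_left
      have hc : A₀ ≤ centralizer (X : Set G) := by
        rw [le_centralizer_iff]; exact inf_le_right
      have hBE : EA (A₀ ⊔ X) := ThompsonJ.elemAb_sup hA₀E hXE hc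
      have hBL : A₀ ⊔ X ≤ L := sup_le ((inf_le_left.trans hAY).trans hYL) (inf_le_left.trans hVL)
      have h1 := card_le_of_isSyl hL.syl hBL hBE hA
      have h2 := SubgroupTools.card_sup_mul_card_inf (N := A₀) (H := X)
        ((le_centralizer_iff.mp hc).trans (centralizer_le_normalizer _))
      rw [← h2]
      apply Nat.mul_le_mul h1
      apply card_le_of_le
      refine le_inf (inf_le_right.trans inf_le_left) ?_
      exact (inf_le_left.trans inf_le_left).trans hAc
  have h1 : cj g⁻¹ (cj g (JJ T)) = JJ T := by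
    show ((JJ T).map _).map _ = _
    rw [← map_conj_mul, inv_mul_cancel, map_conj_one]
  have h2 := hz.of_conj hZN (g := g⁻¹) (by rw [h1]; exact hJW)
  rwa [h1] at h2

end Cfsg.Agent.Lib.ZN
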