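import Mathlib
import Cfsg.Agent.Lib.H30LinC
import Cfsg.Agent.Lib.ZNSub
import Cfsg.Agent.Lib.Burnside

/-! Transitive linear groups over GF(2), the case of dimension six. (helper30) -/

set_option autoImplicit false

open Subgroup
open scoped Pointwise

universe u

namespace Cfsg.Agent.Lib.H30LinD

open H30LinA H30LinB H30LinC H50Out

variable {V : Type u} [CommGroup V] [Finite V]

theorem case_A [Nontrivial V] (hV : Nat.card V = 2 ^ 6)
    (R : Subgroup (MulAut V)) (hR3 : IsPGroup 3 R) (h9 : 9 ∣ Nat.card R)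
    (hs : ∀ k ∈ R, k ≠ 1 → ∀ v, k v = v → v = 1) :
    Group.IsSolvable (Subgroup.normalizer (R : Set (MulAut V))) := by
  haveI : Fact (Nat.Prime 3) := ⟨Nat.prime_three⟩
  have h63 : Nat.card R ∣ 63 := by
    have h1 := card_dvd_semireg R ⊤ (fun k _ s => by simp) (fun k hk hk1 m _ hm => hs k hk hk1 m hm)
    rw [Subgroup.card_top, hV] at h1
    exact h1
  have hR9 : Nat.card R = 9 := by
    obtain ⟨k, hk⟩ := (IsPGroup.iff_card (p := 3)).mp hR3
    rw [hk] at h63 h9 ⊢
    have h1 : k ≤ 2 := by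
      by_contra hlt
      push Not at hlt
      have h4 : 3 ^ 3 ∣ 63 := (pow_dvd_pow 3 hlt).trans h63
      omega
    have h2 : 2 ≤ k := by
      have : 3 ^ 2 ∣ 3 ^ k := h9
      exact (Nat.pow_dvd_pow_iff_le_right (by norm_num)).1 this
    have : k = 2 := by omega
    rw [this]; norm_num
  have hcyc : IsCyclic R := by
    refine FrobAction.isCyclic_of_comm (act := R.subtype) (V := V) ?_
      (ZN.comm_of_card_dvd_nine (by rw [hR9]))
    intro a ha v hv
    exact hs a a.2 (fun h => ha (Subtype.ext h)) v hv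
  obtain ⟨y, hy⟩ := hcyc.exists_generator
  have hyc : ∀ h ∈ R, ∃ k : ℤ, h = (y : MulAut V) ^ k := by
    intro h hh
    obtain ⟨k, hk⟩ := hy ⟨h, hh⟩
    exact ⟨k, (congrArg Subtype.val hk).symm⟩
  refine normalizer_solvable (g := (y : MulAut V)) ?_ R y.2 ?_
  · intro U hU
    have hst : R ≤ stab U := by
      intro h hh
      obtain ⟨k, rfl⟩ := hyc h hh
      have h1 := zpowers_inv hU
      intro s
      constructor
      · intro hs
        have := h1 (((y : MulAut V) ^ k)⁻¹) (inv_mem (zpow_mem (mem_zpowers _) k)) _ hs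
        rwa [MulAut.inv_apply_self] at this
      · exact h1 _ (zpow_mem (mem_zpowers _) k) s
    have h1 := card_dvd_semireg R U hst (fun k hk hk1 m _ hm => hs k hk hk1 m hm)
    obtain ⟨u, hu, hcu⟩ := card_pow hV U
    rw [hR9, hcu] at h1
    have : u = 0 ∨ u = 6 := by
      interval_cases u <;> first | (left; rfl) | (right; rfl) | (exfalso; revert h1; norm_num)
    rcases this with rfl | rfl
    · left; rw [← Subgroup.card_eq_one, hcu, pow_zero]
    · right
      apply Subgroup.eq_top_of_card_eq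
      rw [hcu, hV]
  · intro h hh
    obtain ⟨k, rfl⟩ := hyc h hh
    exact ((Commute.refl (y : MulAut V)).zpow_left k)

/-- fixed points and commutator of an element of order three with fixed points -/
theorem split_three (hV2 : ∀ v : V, v * v = 1) (hV : Nat.card V = 2 ^ 6) {x : MulAut V}
    (hx : orderOf x = 3) {v : V} (hv : v ≠ 1) (hxv : x v = v) :
    ∃ A B : Subgroup V, Nat.card A = 2 ^ 4 ∧ Nat.card B = 2 ^ 2 ∧
      (∀ b : MulAut V, b * x = x * b → b ∈ stab A ∧ b ∈ stab B) ∧
      (∀ k : MulAut V, (∀ v ∈ A, k v = v) → (∀ v ∈ B, k v = v) → k = 1) := by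
  haveI : Fact (Nat.Prime 2) := ⟨Nat.prime_two⟩
  haveI : Fact (Nat.Prime 3) := ⟨Nat.prime_three⟩
  obtain ⟨j, hj, hcj⟩ := card_pow hV (dm x).ker
  obtain ⟨i, hi, hci⟩ := card_pow hV (dm x).range
  have hij : j + i = 6 := by
    have h1 := card_ker_range x
    rw [hcj, hci, hV, ← pow_add] at h1
    exact Nat.pow_right_injective le_rfl h1
  have hfix : Critical2.fixIn x (⊤ : Subgroup V) = (dm x).ker := by
    ext w
    rw [mem_ker, Critical2.mem_fixIn]
    simp
  have h1 := (Critical2.dvd_of_card (p := 2) (by norm_num) x hx ⊤ (fun _ _ _ _ => Subgroup.mem_top _)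
    (k := 6) (j := j) (by rw [Subgroup.card_top, hV]) (by rw [hfix, hcj])).2
  have hj0 : j ≠ 0 := by
    rintro rfl
    rw [pow_zero, Subgroup.card_eq_one] at hcj
    have : v ∈ (dm x).ker := (mem_ker _ _).2 hxv
    rw [hcj, Subgroup.mem_bot] at this
    exact hv this
  have hj6 : j ≠ 6 := by
    rintro rfl
    have h2 : (dm x).ker = ⊤ := by
      apply Subgroup.eq_top_of_card_eq
      rw [hcj, hV]
    have h3 : x = 1 := by
      ext w
      have : w ∈ (dm x).ker := h2 ▸ Subgroup.mem_top w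
      exact (mem_ker _ _).1 this
    rw [h3, orderOf_one] at hx
    omega
  have hx3 : x ^ 3 = 1 := by rw [← hx, pow_orderOf_eq_one]
  have h24 : j = 2 ∨ j = 4 := by
    interval_cases j <;> first | omega | (exfalso; revert h1; norm_num)
  rcases h24 with rfl | rfl
  · have : i = 4 := by omega
    subst this
    refine ⟨(dm x).range, (dm x).ker, hci, hcj, fun b hb => ⟨stab_range hb, stab_ker hb⟩, fun k h1 h2 => ?_⟩
    exact eq_one hV2 (by decide) hx3 h2 h1
  · have : i = 2 := by omega
    subst this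
    refine ⟨(dm x).ker, (dm x).range, hcj, hci, fun b hb => ⟨stab_ker hb, stab_range hb⟩, fun k h1 h2 => ?_⟩
    exact eq_one hV2 (by decide) hx3 h1 h2

theorem card4 (hV2 : ∀ v : V, v * v = 1) {U : Subgroup V} (hU : Nat.card U = 2 ^ 4) :
    Nat.card (MulAut U) ∣ 20160 := by
  have h := card_aut_dvd hV2 U hU
  simp only [Fin.prod_univ_succ, Fin.prod_univ_zero] at h
  exact h

theorem card3 (hV2 : ∀ v : V, v * v = 1) {U : Subgroup V} (hU : Nat.card U = 2 ^ 3) :
    Nat.card (MulAut U) ∣ 168 := by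
  have h := card_aut_dvd hV2 U hU
  simp only [Fin.prod_univ_succ, Fin.prod_univ_zero] at h
  exact h

theorem card2 (hV2 : ∀ v : V, v * v = 1) {U : Subgroup V} (hU : Nat.card U = 2 ^ 2) :
    Nat.card (MulAut U) ∣ 6 := by
  have h := card_aut_dvd hV2 U hU
  simp only [Fin.prod_univ_succ, Fin.prod_univ_zero] at h
  exact h

end Cfsg.Agent.Lib.H30LinD
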